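import Mathlib

set_option autoImplicit false
set_option linter.all false

/-! # Groups with an abelian normal subgroup of prime index; small `p`-groups -/

namespace CfsgLib.AbIdx20

open Subgroup
open scoped commutatorElement

/-- `a ↦ ⁅x, a⁆` is a homomorphism on an abelian normal subgroup. -/
noncomputable def commHom {G : Type*} [Group G] (A : Subgroup G) [hA : A.Normal]
    (hc : ∀ a ∈ A, ∀ b ∈ A, a * b = b * a) (x : G) : A →* G where
  toFun a := ⁅x, (a : G)⁆
  map_one' := by simp
  map_mul' := by
    intro a b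
    have h1 : ∀ a : A, ⁅x, (a : G)⁆ ∈ A := by
      intro a
      rw [commutatorElement_def]
      exact A.mul_mem (hA.conj_mem _ a.2 x) (A.inv_mem a.2)
    have h2 : ⁅x, ((a * b : A) : G)⁆ = ⁅x, (a : G)⁆ * ((a : G) * ⁅x, (b : G)⁆ * (a : G)⁻¹) := by
      rw [commutatorElement_def, commutatorElement_def, commutatorElement_def, Subgroup.coe_mul]
      group
    rw [h2, hc _ a.2 _ (h1 b), mul_inv_cancel_right]

theorem commHom_apply {G : Type*} [Group G] (A : Subgroup G) [hA : A.Normal]
    (hc : ∀ a ∈ A, ∀ b ∈ A, a * b = b * a) (x : G) (a : A) : commHom A hc x a = ⁅x, (a : G)⁆ := rfl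

theorem sup_zpowers_eq_top {G : Type*} [Group G] [Finite G] {A : Subgroup G} {p : ℕ} (hp : p.Prime)
    (hi : A.index = p) {x : G} (hx : x ∉ A) : A ⊔ zpowers x = ⊤ := by
  have h1 : A ≤ A ⊔ zpowers x := le_sup_left
  have h2 := Subgroup.relIndex_mul_index h1
  rw [hi] at h2
  have h3 : (A ⊔ zpowers x).index ∣ p := ⟨_, by rw [mul_comm]; exact h2.symm⟩
  rcases (Nat.dvd_prime hp).mp h3 with h4 | h4
  · exact Subgroup.index_eq_one.mp h4
  · exfalso
    rw [h4] at h2
    have h5 : A.relIndex (A ⊔ zpowers x) = 1 := by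
      have := hp.pos
      exact Nat.eq_of_mul_eq_mul_right this (by rw [h2, one_mul])
    rw [Subgroup.relIndex_eq_one] at h5
    exact hx (h5 (Subgroup.mem_sup_right (mem_zpowers x)))

/-- `|A| = |G'| |C_A(x)|` for `A` abelian normal of prime index, `x ∉ A`. -/
theorem card_eq {G : Type*} [Group G] [Finite G] {A : Subgroup G} [hA : A.Normal]
    (hc : ∀ a ∈ A, ∀ b ∈ A, a * b = b * a) {p : ℕ} (hp : p.Prime) (hi : A.index = p)
    {x : G} (hx : x ∉ A) :
    Nat.card A = Nat.card (commutator G) * Nat.card {a : A // x * a = a * x} := by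
  classical
  set f := commHom A hc x with hf
  have hD1 : f.range ≤ commutator G := by
    rintro _ ⟨a, rfl⟩
    exact Subgroup.commutator_mem_commutator (mem_top _) (mem_top _)
  have hDA : f.range ≤ A := by
    rintro _ ⟨a, rfl⟩
    rw [commHom_apply, commutatorElement_def]
    exact A.mul_mem (hA.conj_mem _ a.2 x) (A.inv_mem a.2)
  have hDn : f.range.Normal := by
    rw [← Subgroup.normalizer_eq_top_iff, eq_top_iff, ← sup_zpowers_eq_top hp hi hx, sup_le_iff]
    constructor
    · intro a ha
      rw [Subgroup.mem_normalizer_iff]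
      intro y
      constructor
      · intro hy
        rw [hc a ha y (hDA hy), mul_inv_cancel_right]
        exact hy
      · intro hy
        have h1 := hDA hy
        have h2 : y ∈ A := by
          have := hA.conj_mem _ h1 a⁻¹
          have e : a⁻¹ * (a * y * a⁻¹) * a⁻¹⁻¹ = y := by group
          rwa [e] at this
        rwa [hc a ha y h2, mul_inv_cancel_right] at hy
    · rw [Subgroup.zpowers_le]
      -- x normalizes the range
      have h1 : ∀ y ∈ f.range, x * y * x⁻¹ ∈ f.range := by
        rintro _ ⟨a, rfl⟩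
        refine ⟨⟨x * a * x⁻¹, hA.conj_mem _ a.2 x⟩, ?_⟩
        rw [commHom_apply, commHom_apply, commutatorElement_def, commutatorElement_def]
        group
      have h2 : Nat.card (f.range.map (MulAut.conj x).toMonoidHom) = Nat.card f.range :=
        Subgroup.card_map_of_injective (MulAut.conj x).injective
      have h3 : f.range.map (MulAut.conj x).toMonoidHom = f.range := by
        apply Subgroup.eq_of_le_of_card_ge _ h2.ge
        rintro _ ⟨y, hy, rfl⟩
        exact h1 y hy
      rw [Subgroup.mem_normalizer_iff]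
      intro y
      refine ⟨h1 y, fun hy => ?_⟩
      change x * y * x⁻¹ ∈ f.range at hy
      rw [← h3] at hy
      obtain ⟨z, hz, hzy⟩ := hy
      have hzy' : x * z * x⁻¹ = x * y * x⁻¹ := hzy
      have : z = y := by
        have := mul_left_cancel (mul_right_cancel hzy')
        exact this
      rw [← this]; exact hz
  have hD2 : commutator G ≤ f.range := by
    haveI := hDn
    rw [← Subgroup.Normal.quotient_commutative_iff_commutator_le]
    -- the images of A and x generate and commute
    have htop : Subgroup.closure ((QuotientGroup.mk' f.range) '' ((A : Set G) ∪ {x})) = ⊤ := by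
      rw [← MonoidHom.map_closure, Subgroup.closure_union, Subgroup.closure_eq,
        ← Subgroup.zpowers_eq_closure, sup_zpowers_eq_top hp hi hx]
      exact Subgroup.map_top_of_surjective _ (QuotientGroup.mk'_surjective _)
    have hcom : ∀ u ∈ (QuotientGroup.mk' f.range) '' ((A : Set G) ∪ {x}),
        ∀ v ∈ (QuotientGroup.mk' f.range) '' ((A : Set G) ∪ {x}), u * v = v * u := by
      have hxa : ∀ a ∈ A, (QuotientGroup.mk' f.range) (x * a) = (QuotientGroup.mk' f.range) (a * x) := by
        intro a ha
        have e : x * a = ⁅x, a⁆ * (a * x) := by rw [commutatorElement_def]; group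
        have h1 : (QuotientGroup.mk' f.range) ⁅x, a⁆ = 1 := by
          rw [QuotientGroup.mk'_apply, QuotientGroup.eq_one_iff]
          exact ⟨⟨a, ha⟩, rfl⟩
        rw [e, map_mul, h1, one_mul]
      rintro _ ⟨u, hu, rfl⟩ _ ⟨v, hv, rfl⟩
      rw [← map_mul, ← map_mul]
      rcases hu with hu | hu <;> rcases hv with hv | hv
      · rw [hc u hu v hv]
      · rw [Set.mem_singleton_iff.mp hv]
        exact (hxa u hu).symm
      · rw [Set.mem_singleton_iff.mp hu]
        exact hxa v hv
      · rw [Set.mem_singleton_iff.mp hu, Set.mem_singleton_iff.mp hv]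
    have h5 := Subgroup.isMulCommutative_closure hcom
    rw [htop] at h5
    refine ⟨⟨fun u v => ?_⟩⟩
    have h6 := h5.is_comm.comm ⟨u, mem_top _⟩ ⟨v, mem_top _⟩
    exact congrArg Subtype.val h6
  have hD : f.range = commutator G := le_antisymm hD1 hD2
  have h1 := Subgroup.card_mul_index f.ker
  rw [Subgroup.index_ker, hD] at h1
  rw [← h1, mul_comm]
  congr 1
  apply Nat.card_congr
  refine Equiv.subtypeEquivRight fun a => ?_
  rw [MonoidHom.mem_ker, commHom_apply, commutatorElement_eq_one_iff_mul_comm]

/-- `|A| = |G'| |Z(G)|` for `A` abelian normal of prime index, `G` nonabelian. -/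
theorem card_eq_center {G : Type*} [Group G] [Finite G] {A : Subgroup G} [hA : A.Normal]
    (hc : ∀ a ∈ A, ∀ b ∈ A, a * b = b * a) {p : ℕ} (hp : p.Prime) (hi : A.index = p)
    (hna : ¬ ∀ x y : G, x * y = y * x) :
    Nat.card A = Nat.card (commutator G) * Nat.card (center G) := by
  obtain ⟨x, hx⟩ : ∃ x, x ∉ A := by
    by_contra h
    push Not at h
    exact hna fun a b => hc a (h a) b (h b)
  rw [card_eq hc hp hi hx]
  congr 1
  have hcen : ∀ z ∈ center G, z ∈ A := by
    intro z hz
    by_contra hzA
    apply hna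
    have h1 : ∀ u ∈ (A : Set G) ∪ {z}, ∀ v ∈ (A : Set G) ∪ {z}, u * v = v * u := by
      rintro u (hu | hu) v (hv | hv)
      · exact hc u hu v hv
      · rw [Set.mem_singleton_iff.mp hv]; exact (mem_center_iff.mp hz u)
      · rw [Set.mem_singleton_iff.mp hu]; exact (mem_center_iff.mp hz v).symm
      · rw [Set.mem_singleton_iff.mp hu, Set.mem_singleton_iff.mp hv]
    have h2 := Subgroup.isMulCommutative_closure h1
    have h3 : closure ((A : Set G) ∪ {z}) = ⊤ := by
      rw [Subgroup.closure_union, Subgroup.closure_eq,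
        ← Subgroup.zpowers_eq_closure, sup_zpowers_eq_top hp hi hzA]
    rw [h3] at h2
    intro a b
    exact congrArg Subtype.val (h2.is_comm.comm ⟨a, mem_top _⟩ ⟨b, mem_top _⟩)
  refine Nat.card_congr ⟨fun a => ⟨a.1.1, ?_⟩, fun z => ⟨⟨z.1, hcen _ z.2⟩, ?_⟩, fun _ => rfl, fun _ => rfl⟩
  · have h1 : (⊤ : Subgroup G) ≤ centralizer {(a.1.1 : G)} := by
      rw [← sup_zpowers_eq_top hp hi hx, sup_le_iff, zpowers_le]
      constructor
      · intro b hb
        exact mem_centralizer_singleton_iff.mpr (hc b hb _ a.1.2)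
      · exact mem_centralizer_singleton_iff.mpr a.2
    rw [mem_center_iff]
    intro g
    exact mem_centralizer_singleton_iff.mp (h1 (mem_top g))
  · exact (mem_center_iff.mp z.2 x)

theorem index_prime_normal {G : Type*} [Group G] [Finite G] {p : ℕ} [Fact p.Prime] (hG : IsPGroup p G)
    {A : Subgroup G} (hi : A.index = p) : A.Normal := by
  apply Subgroup.normal_of_index_eq_minFac_card
  rw [hi]
  obtain ⟨n, hn⟩ := IsPGroup.iff_card.mp hG
  have hp : p.Prime := Fact.out
  rcases n with _ | n
  · exfalso
    have h1 := A.index_dvd_card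
    rw [hi, hn, pow_zero] at h1
    exact hp.one_lt.ne' (Nat.dvd_one.mp h1)
  · rw [hn, Nat.Prime.pow_minFac hp (Nat.succ_ne_zero n)]

end CfsgLib.AbIdx20
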