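import Mathlib
import Cfsg.Agent.LibTate

/-! Wielandt / Yoshida transfer arguments -/

set_option autoImplicit false
set_option linter.all false

namespace CfsgLib.WY

open CfsgLib.SolvBasic CfsgLib.Tate

universe u v w

section cocycle

variable {G : Type u} [Group G] {Ω : Type v} [MulAction G Ω] {C : Type w} [CommGroup C]
  (c : G → Ω → C)

open Classical in
/-- local contribution at fixed points -/
noncomputable def ell (y : G) (x : Ω) : C := if y • x = x then c y x else 1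

theorem ell_fix {y : G} {x : Ω} (h : y • x = x) : ell c y x = c y x := if_pos h

theorem ell_nfix {y : G} {x : Ω} (h : y • x ≠ x) : ell c y x = 1 := if_neg h

theorem fix_of_ell_ne {y : G} {x : Ω} (h : ell c y x ≠ 1) : y • x = x := by
  by_contra h1
  exact h (ell_nfix c h1)

variable (hc : ∀ g g' x, c (g * g') x = c g (g' • x) * c g' x)
include hc

theorem c_one (x : Ω) : c 1 x = 1 := by
  have h := hc 1 1 x
  rw [mul_one, one_smul] at h
  exact left_eq_mul.mp h

theorem c_conj (g y : G) (x : Ω) (h : y • x = x) : c (g * y * g⁻¹) (g • x) = c y x := by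
  have h1 := hc (g * y) g⁻¹ (g • x)
  rw [inv_smul_smul] at h1
  have h2 := hc g y x
  rw [h] at h2
  have h3 := hc g g⁻¹ (g • x)
  rw [mul_inv_cancel, inv_smul_smul, c_one c hc] at h3
  rw [h1, h2, mul_right_comm, ← h3, one_mul]

theorem ell_conj (g y : G) (x : Ω) : ell c (g * y * g⁻¹) (g • x) = ell c y x := by
  by_cases h : y • x = x
  · rw [ell_fix c h, ell_fix, c_conj c hc g y x h]
    rw [mul_smul, mul_smul, inv_smul_smul, h]
  · rw [ell_nfix c h, ell_nfix]
    intro h1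
    apply h
    rw [mul_smul, mul_smul, inv_smul_smul] at h1
    exact smul_left_cancel g h1

theorem ell_smul (g y : G) (x : Ω) : ell c y (g • x) = ell c (g⁻¹ * y * g) x := by
  have h := ell_conj c hc g (g⁻¹ * y * g) x
  rw [← h]
  congr 1
  group

theorem T_mul (O : Finset Ω) (y y' : G) (h : ∀ x, y' • x ∈ O ↔ x ∈ O) :
    ∏ x ∈ O, c (y * y') x = (∏ x ∈ O, c y x) * ∏ x ∈ O, c y' x := by
  have h1 : ∏ x ∈ O, c y (y' • x) = ∏ x ∈ O, c y x :=
    Finset.prod_equiv (MulAction.toPerm y') (fun x => (h x).symm) (fun x _ => rfl)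
  rw [← h1, ← Finset.prod_mul_distrib]
  exact Finset.prod_congr rfl (fun x _ => hc y y' x)

theorem c_pow (y : G) (x : Ω) (m : ℕ) : c (y ^ m) x = ∏ i ∈ Finset.range m, c y (y ^ i • x) := by
  induction m with
  | zero => rw [pow_zero, Finset.range_zero, Finset.prod_empty, c_one c hc]
  | succ m ih => rw [pow_succ', hc, Finset.prod_range_succ, ih, mul_comm]

omit hc in
open Classical in
theorem exists_fiber {κ : Type*} (B : Finset Ω) (g : Ω → κ) (e : Ω → C) (h : ∏ q ∈ B, e q ≠ 1) :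
    ∃ q ∈ B, ∀ F : Finset Ω, (∀ x, x ∈ F ↔ x ∈ B ∧ g x = g q) → ∏ q' ∈ F, e q' ≠ 1 := by
  by_contra hcon
  push Not at hcon
  apply h
  rw [← Finset.prod_fiberwise_of_maps_to (t := B.image g) (fun x hx => Finset.mem_image_of_mem g hx)]
  apply Finset.prod_eq_one
  intro j hj
  obtain ⟨q, hq, rfl⟩ := Finset.mem_image.mp hj
  obtain ⟨F, hF, h1⟩ := hcon q hq
  rw [← h1]
  congr 1
  ext x
  rw [hF, Finset.mem_filter]

open Classical in
theorem T_nonfix [Finite G] (y : G) (O : Finset Ω) (hinv : ∀ x, y • x ∈ O ↔ x ∈ O)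
    (hO : ∀ x ∈ O, ∀ k : ℕ, y ^ k • x = x → c (y ^ k) x = 1) : ∏ x ∈ O, c y x = 1 := by
  by_contra hne
  obtain ⟨q, hq, hq1⟩ := exists_fiber O (fun x => MulAction.orbit (Subgroup.zpowers y) x) _ hne
  obtain ⟨m, hm⟩ : ∃ m, m = Function.minimalPeriod (y • ·) q := ⟨_, rfl⟩
  have hm0 : 0 < m := by
    have h1 : m ∣ orderOf y := by
      rw [hm, ← MulAction.pow_smul_eq_iff_minimalPeriod_dvd, pow_orderOf_eq_one, one_smul]
    exact Nat.pos_of_dvd_of_pos h1 (orderOf_pos y)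
  have hmq : y ^ m • q = q := by
    rw [MulAction.pow_smul_eq_iff_minimalPeriod_dvd, hm]
  have hpow : ∀ i : ℕ, y ^ i • q ∈ O := by
    intro i
    induction i with
    | zero => rwa [pow_zero, one_smul]
    | succ i ih => rw [pow_succ', mul_smul]; exact (hinv _).mpr ih
  apply hq1 ((Finset.range m).image (fun i => y ^ i • q))
  · intro x
    rw [Finset.mem_image]
    change _ ↔ x ∈ O ∧ MulAction.orbit (Subgroup.zpowers y) x = MulAction.orbit (Subgroup.zpowers y) q
    rw [MulAction.orbit_eq_iff]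
    symm
    constructor
    · rintro ⟨hx, ⟨⟨_, k, rfl⟩, rfl⟩⟩
      refine ⟨(k % (m : ℤ)).toNat, ?_, ?_⟩
      · rw [Finset.mem_range]
        have h1 := Int.emod_nonneg k (by exact_mod_cast hm0.ne' : (m : ℤ) ≠ 0)
        have h2 := Int.emod_lt_of_pos k (by exact_mod_cast hm0 : (0 : ℤ) < m)
        omega
      · change y ^ (k % (m : ℤ)).toNat • q = y ^ k • q
        have h1 := Int.emod_nonneg k (by exact_mod_cast hm0.ne' : (m : ℤ) ≠ 0)
        have h2 : y ^ (k % (m : ℤ)).toNat = y ^ (k % (m : ℤ)) := by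
          rw [← zpow_natCast, Int.toNat_of_nonneg h1]
        rw [h2]
        conv_rhs => rw [← Int.emod_add_mul_ediv k m, zpow_add, mul_smul]
        congr 1
        symm
        rw [MulAction.zpow_smul_eq_iff_minimalPeriod_dvd, ← hm]
        exact dvd_mul_right _ _
    · rintro ⟨i, hi, rfl⟩
      exact ⟨hpow i, ⟨⟨y ^ i, ⟨(i : ℤ), by simp⟩⟩, rfl⟩⟩
  rw [Finset.prod_image]
  · rw [← c_pow c hc]
    exact hO q hq m hmq
  · -- injectivity
    have key : ∀ i j : ℕ, i ≤ j → j < m → y ^ i • q = y ^ j • q → i = j := by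
      intro i j hij hj h
      have h1 : y ^ (j - i) • q = q := by
        have h2 : y ^ i • (y ^ (j - i) • q) = y ^ i • q := by
          rw [← mul_smul, ← pow_add, Nat.add_sub_cancel' hij, h]
        exact smul_left_cancel _ h2
      rw [MulAction.pow_smul_eq_iff_minimalPeriod_dvd, ← hm] at h1
      have h3 := Nat.eq_zero_of_dvd_of_lt h1 (by omega)
      omega
    intro i hi j hj h
    have hi' := Finset.mem_range.mp (Finset.mem_coe.mp hi)
    have hj' := Finset.mem_range.mp (Finset.mem_coe.mp hj)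
    rcases le_total i j with hij | hij
    · exact key i j hij hj' h
    · exact (key j i hij hi' h.symm).symm

/-- the transfer is the sum of local contributions -/
theorem T_eq_L [Finite G] (y : G) (O : Finset Ω) (hinv : ∀ x, y • x ∈ O ↔ x ∈ O)
    (hO : ∀ x ∈ O, y • x ≠ x → ∀ k : ℕ, y ^ k • x = x → c (y ^ k) x = 1) :
    ∏ x ∈ O, c y x = ∏ x ∈ O, ell c y x := by
  classical
  rw [← Finset.prod_filter_mul_prod_filter_not O (fun x => y • x = x) (c y),
    ← Finset.prod_filter_mul_prod_filter_not O (fun x => y • x = x) (ell c y)]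
  have h1 : ∏ x ∈ O.filter (fun x => ¬ y • x = x), c y x = 1 := by
    apply T_nonfix c hc
    · intro x
      rw [Finset.mem_filter, Finset.mem_filter, hinv]
      constructor
      · rintro ⟨h1, h2⟩
        exact ⟨h1, fun h3 => h2 (by rw [h3, h3])⟩
      · rintro ⟨h1, h2⟩
        exact ⟨h1, fun h3 => h2 (smul_left_cancel y h3)⟩
    · intro x hx
      rw [Finset.mem_filter] at hx
      exact hO x hx.1 hx.2
  have h2 : ∏ x ∈ O.filter (fun x => ¬ y • x = x), ell c y x = 1 := by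
    apply Finset.prod_eq_one
    intro x hx
    rw [Finset.mem_filter] at hx
    exact ell_nfix c hx.2
  rw [h1, h2]
  congr 1
  apply Finset.prod_congr rfl
  intro x hx
  rw [Finset.mem_filter] at hx
  exact (ell_fix c hx.2).symm

end cocycle

section blocks

variable {G : Type u} [Group G] {Ω : Type v} [MulAction G Ω] {C : Type w} [CommGroup C]

open Classical in
theorem block (A B : Subgroup G) (hAB : A ≤ B) (q₁ : Ω) (hst : ∀ b ∈ B, b • q₁ = q₁ → b ∈ A)
    (OB OA : Finset Ω) (hOB : ∀ q, q ∈ OB ↔ ∃ b ∈ B, b • q₁ = q)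
    (hOA : ∀ q, q ∈ OA ↔ ∃ a ∈ A, a • q₁ = q) (e : Ω → C) (h : ∏ q ∈ OB, e q ≠ 1) :
    ∃ b ∈ B, ∏ q ∈ OA, e (b • q) ≠ 1 := by
  obtain ⟨q, hq, h1⟩ := exists_fiber OB
    (fun q => {q' : Ω | ∃ b ∈ B, b • q₁ = q ∧ ∃ a ∈ A, q' = b • a • q₁}) e h
  obtain ⟨b, hb, rfl⟩ := (hOB q).mp hq
  refine ⟨b, hb, ?_⟩
  have h1' := h1 (OA.image (fun q => b • q)) (by
    intro x
    rw [Finset.mem_image]
    change _ ↔ x ∈ OB ∧ {q'' : Ω | ∃ b' ∈ B, b' • q₁ = x ∧ ∃ a ∈ A, q'' = b' • a • q₁} =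
      {q'' : Ω | ∃ b' ∈ B, b' • q₁ = b • q₁ ∧ ∃ a ∈ A, q'' = b' • a • q₁}
    symm
    constructor
    · rintro ⟨hx, h2⟩
      obtain ⟨b', hb', rfl⟩ := (hOB x).mp hx
      have h3 : b' • q₁ ∈ {q'' : Ω | ∃ b'' ∈ B, b'' • q₁ = b' • q₁ ∧ ∃ a ∈ A,
          q'' = b'' • a • q₁} := ⟨b', hb', rfl, 1, A.one_mem, by rw [one_smul]⟩
      rw [h2] at h3
      obtain ⟨b'', hb'', h4, a, ha, h5⟩ := h3
      -- b'' ∈ b A
      have h6 : b⁻¹ * b'' ∈ A := by
        apply hst _ (B.mul_mem (B.inv_mem hb) hb'')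
        rw [mul_smul, h4, inv_smul_smul]
      refine ⟨(b⁻¹ * b'' * a) • q₁, (hOA _).mpr ⟨_, A.mul_mem h6 ha, rfl⟩, ?_⟩
      rw [h5, ← mul_smul, ← mul_smul]
      congr 1
      group
    · rintro ⟨y, hy, rfl⟩
      obtain ⟨a, ha, rfl⟩ := (hOA y).mp hy
      have hbaB : b * a ∈ B := B.mul_mem hb (hAB ha)
      refine ⟨(hOB _).mpr ⟨b * a, hbaB, by rw [mul_smul]⟩, ?_⟩
      ext x
      constructor
      · rintro ⟨b', hb', h2, a', ha', rfl⟩
        refine ⟨b, hb, rfl, b⁻¹ * b' * a', ?_, ?_⟩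
        · refine A.mul_mem ?_ ha'
          have h3 : a⁻¹ * (b⁻¹ * b') ∈ A := by
            apply hst _ (B.mul_mem (B.inv_mem (hAB ha)) (B.mul_mem (B.inv_mem hb) hb'))
            rw [mul_smul, mul_smul, h2, inv_smul_smul, inv_smul_smul]
          have h4 := A.mul_mem ha h3
          rwa [mul_inv_cancel_left] at h4
        · rw [← mul_smul, ← mul_smul]
          congr 1
          group
      · rintro ⟨b', hb', h2, a', ha', rfl⟩
        have h6 : b⁻¹ * b' ∈ A := by
          apply hst _ (B.mul_mem (B.inv_mem hb) hb')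
          rw [mul_smul, h2, inv_smul_smul]
        refine ⟨b * a, hbaB, by rw [mul_smul], a⁻¹ * (b⁻¹ * b') * a', ?_, ?_⟩
        · exact A.mul_mem (A.mul_mem (A.inv_mem ha) h6) ha'
        · rw [← mul_smul, ← mul_smul]
          congr 1
          group)
  rwa [Finset.prod_image] at h1'
  intro i _ j _ hij
  exact smul_left_cancel b hij

open Classical in
theorem cyclic_block (M R : Subgroup G) (q₁ : Ω) (z : G) (p : ℕ)
    (hM : M ≤ R) (hzR : z ∈ R)
    (hdec : ∀ r ∈ R, ∃ i < p, ∃ m ∈ M, r = z ^ i * m)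
    (hz : ∀ i < p, z ^ i ∈ M → i = 0)
    (hst : ∀ b ∈ R, b • q₁ = q₁ → b ∈ M)
    (OB OA : Finset Ω) (hOB : ∀ q, q ∈ OB ↔ ∃ b ∈ R, b • q₁ = q)
    (hOA : ∀ q, q ∈ OA ↔ ∃ a ∈ M, a • q₁ = q) (e : Ω → C) :
    ∏ q ∈ OB, e q = ∏ i ∈ Finset.range p, ∏ q ∈ OA, e (z ^ i • q) := by
  have hU : OB = (Finset.range p).biUnion (fun i => OA.image (fun q => z ^ i • q)) := by
    ext x
    rw [hOB, Finset.mem_biUnion]
    constructor
    · rintro ⟨r, hr, rfl⟩
      obtain ⟨i, hi, m, hm, rfl⟩ := hdec r hr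
      refine ⟨i, Finset.mem_range.mpr hi, Finset.mem_image.mpr ⟨m • q₁, (hOA _).mpr ⟨m, hm, rfl⟩, ?_⟩⟩
      rw [mul_smul]
    · rintro ⟨i, hi, hx⟩
      obtain ⟨y, hy, rfl⟩ := Finset.mem_image.mp hx
      obtain ⟨m, hm, rfl⟩ := (hOA _).mp hy
      exact ⟨z ^ i * m, R.mul_mem (R.pow_mem hzR i) (hM hm), by rw [mul_smul]⟩
  rw [hU, Finset.prod_biUnion]
  · apply Finset.prod_congr rfl
    intro i _
    rw [Finset.prod_image]
    intro a _ b _ hab
    exact smul_left_cancel (z ^ i) hab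
  · have key : ∀ i j : ℕ, i ≤ j → j < p → (∃ x, x ∈ OA.image (fun q => z ^ i • q) ∧
        x ∈ OA.image (fun q => z ^ j • q)) → i = j := by
      rintro i j hij hj ⟨x, hx1, hx2⟩
      obtain ⟨y, hy, rfl⟩ := Finset.mem_image.mp hx1
      obtain ⟨m, hm, rfl⟩ := (hOA _).mp hy
      obtain ⟨y', hy', h1⟩ := Finset.mem_image.mp hx2
      obtain ⟨m', hm', rfl⟩ := (hOA _).mp hy'
      have h2 : (m⁻¹ * z ^ (j - i) * m') • q₁ = q₁ := by
        have h3 : z ^ i • (z ^ (j - i) • m' • q₁) = z ^ i • (m • q₁) := by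
          rw [← mul_smul, ← pow_add, Nat.add_sub_cancel' hij]; exact h1
        have h4 := smul_left_cancel _ h3
        rw [mul_smul, mul_smul, h4, inv_smul_smul]
      have h5 := hst _ (R.mul_mem (R.mul_mem (R.inv_mem (hM hm)) (R.pow_mem hzR _)) (hM hm')) h2
      have h6 : z ^ (j - i) ∈ M := by
        have h7 := M.mul_mem (M.mul_mem hm h5) (M.inv_mem hm')
        have h8 : m * (m⁻¹ * z ^ (j - i) * m') * m'⁻¹ = z ^ (j - i) := by group
        rwa [h8] at h7
      have h9 := hz (j - i) (by omega) h6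
      omega
    intro i hi j hj hij
    rw [Function.onFun, Finset.disjoint_left]
    intro x hx1 hx2
    apply hij
    have hi' := Finset.mem_range.mp (Finset.mem_coe.mp hi)
    have hj' := Finset.mem_range.mp (Finset.mem_coe.mp hj)
    rcases le_total i j with h | h
    · exact key i j h hj' ⟨x, hx1, hx2⟩
    · exact (key j i h hi' ⟨x, hx2, hx1⟩).symm

end blocks

end CfsgLib.WY
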