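import Mathlib
import Cfsg.Agent.LibTate
import Cfsg.Agent.LibWY

/-! Wielandt / Yoshida transfer arguments, part 2 -/

set_option autoImplicit false
set_option linter.all false

open scoped commutatorElement

namespace CfsgLib.WY

open CfsgLib.SolvBasic CfsgLib.Tate CfsgLib.SolvCoprime CfsgLib.TransPC CfsgLib.TransFus CfsgLib.TransAb
  CfsgLib.Gaschutz

universe u v w

variable {G : Type u} [Group G]

/-- Tate's argument under a mod `p` hypothesis -/
theorem tate_mod [Finite G] {p : ℕ} [hp : Fact p.Prime] (P : Sylow p G) (V : Subgroup G)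
    (hPV : (P : Subgroup G) ≤ V)
    (hmod : ∀ (Z : Type u) [Group Z], Nat.card Z = p → ∀ lam : V →* Z,
      ∀ y : V, (y : G) ∈ (P : Subgroup G) → (y : G) ∈ commutator G → lam y = 1) (n : ℕ) :
    ∀ (X : Type u) [Group X] [Finite X] (_ : Nat.card X = n) (_ : IsPGroup p X)
      (β : V →* X), ∃ ψ : G →* X, ∀ v : V, ψ v = β v := by
  induction n using Nat.strong_induction_on with
  | _ n ih =>
  intro X _ _ hn hX β
  rcases subsingleton_or_nontrivial X with hs | hnt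
  · exact ⟨1, fun v => Subsingleton.elim _ _⟩
  -- central subgroup of order p
  have hZnt : Nontrivial (Subgroup.center X) := hX.center_nontrivial
  have hd : p ∣ Nat.card (Subgroup.center X) := by
    obtain ⟨k, hk⟩ := IsPGroup.iff_card.mp (hX.to_subgroup (Subgroup.center X))
    rw [hk]
    apply dvd_pow_self
    rintro rfl
    rw [pow_zero] at hk
    have := Finite.one_lt_card_iff_nontrivial.mpr hZnt
    omega
  obtain ⟨z, hz⟩ := exists_prime_orderOf_dvd_card' p hd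
  obtain ⟨Z, hZ⟩ : ∃ Z, Z = Subgroup.zpowers (z : X) := ⟨_, rfl⟩
  have hZc : Z ≤ Subgroup.center X := by rw [hZ]; exact Subgroup.zpowers_le.mpr z.2
  have hZcard : Nat.card Z = p := by rw [hZ, Nat.card_zpowers, Subgroup.orderOf_coe, hz]
  have hZn : Z.Normal := CfsgLib.SolvNilp.normal_of_le_center hZc
  have hZ1 : Z ≠ ⊥ := by
    rintro rfl
    rw [Subgroup.card_bot] at hZcard
    exact hp.out.one_lt.ne hZcard
  obtain ⟨ψ₁, hψ₁⟩ := ih (Nat.card (X ⧸ Z)) (by rw [← hn]; exact card_quotient_lt Z hZ1) (X ⧸ Z) rfl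
    (hX.to_quotient Z) ((QuotientGroup.mk' Z).comp β)
  have hker : (QuotientGroup.mk' Z).ker = Z := QuotientGroup.ker_mk' Z
  have hZcomm : IsMulCommutative (QuotientGroup.mk' Z).ker := by
    refine ⟨⟨fun a b => Subtype.ext ?_⟩⟩
    have hb : (b : X) ∈ Z := hker.le b.2
    exact (Subgroup.mem_center_iff.mp (hZc hb) a)
  obtain ⟨ψ, hψ⟩ := lift ψ₁ (QuotientGroup.mk' Z) (fun g => QuotientGroup.mk'_surjective Z _) hZcomm
    (P : Subgroup G) (by
      rw [hker, hZcard]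
      exact (Nat.Prime.coprime_iff_not_dvd hp.out).mpr P.not_dvd_index)
    (β.comp (Subgroup.inclusion hPV)) (fun y => (hψ₁ ⟨y, hPV y.2⟩).symm)
  -- the difference
  have hdiff : ∀ v : V, ψ v * (β v)⁻¹ ∈ Z := by
    intro v
    rw [← QuotientGroup.eq_one_iff]
    change QuotientGroup.mk' Z (ψ v * (β v)⁻¹) = 1
    rw [map_mul, map_inv, hψ, hψ₁]
    exact mul_inv_cancel _
  let lamV : V →* X := MonoidHom.mk' (fun v => ψ v * (β v)⁻¹) (by
    intro a b
    have h1 := Subgroup.mem_center_iff.mp (hZc (hdiff b)) (β a)⁻¹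
    change ψ ((a : G) * b) * (β (a * b))⁻¹ = (ψ a * (β a)⁻¹) * (ψ b * (β b)⁻¹)
    rw [map_mul, map_mul, mul_inv_rev]
    calc ψ a * ψ b * ((β b)⁻¹ * (β a)⁻¹) = ψ a * ((ψ b * (β b)⁻¹) * (β a)⁻¹) := by group
      _ = ψ a * ((β a)⁻¹ * (ψ b * (β b)⁻¹)) := by rw [h1]
      _ = _ := by group)
  have hlamV : ∀ v : V, lamV v = ψ v * (β v)⁻¹ := fun _ => rfl
  have hlamZ : ∀ v, lamV v ∈ Z := hdiff
  have hmod1 : ∀ y : V, (y : G) ∈ (P : Subgroup G) → (y : G) ∈ commutator G → lamV y = 1 := by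
    intro y hyP hyG
    have h1 := hmod Z hZcard (lamV.codRestrict Z hlamZ) y hyP hyG
    have h2 := congrArg Subtype.val h1
    exact h2
  obtain ⟨Λ, hΛ, hΛr⟩ := extend_hom P (lamV.comp (Subgroup.inclusion hPV)) (by
    intro y hy
    exact hmod1 _ y.2 hy)
  have hΛZ : ∀ g, Λ g ∈ Z := by
    intro g
    obtain ⟨y, hy⟩ := hΛr ⟨g, rfl⟩
    rw [← hy]; exact hlamZ _
  let ψ' : G →* X := MonoidHom.mk' (fun g => ψ g * (Λ g)⁻¹) (by
    intro a b
    have h1 := Subgroup.mem_center_iff.mp (hZc (Z.inv_mem (hΛZ a))) (ψ b * (Λ b)⁻¹)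
    change ψ (a * b) * (Λ (a * b))⁻¹ = (ψ a * (Λ a)⁻¹) * (ψ b * (Λ b)⁻¹)
    rw [map_mul, map_mul, mul_inv_rev]
    calc ψ a * ψ b * ((Λ b)⁻¹ * (Λ a)⁻¹) = ψ a * ((ψ b * (Λ b)⁻¹) * (Λ a)⁻¹) := by group
      _ = ψ a * ((Λ a)⁻¹ * (ψ b * (Λ b)⁻¹)) := by rw [h1]
      _ = _ := by group)
  refine ⟨ψ', ?_⟩
  -- μ : V → Z trivial on P and on p'-elements
  let μ : V →* X := MonoidHom.mk' (fun v => lamV v * (Λ v)⁻¹) (by
    intro a b
    have h1 := Subgroup.mem_center_iff.mp (hZc (Z.inv_mem (hΛZ a))) (lamV b * (Λ b)⁻¹)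
    change lamV (a * b) * (Λ ((a : G) * b))⁻¹ = (lamV a * (Λ a)⁻¹) * (lamV b * (Λ b)⁻¹)
    rw [map_mul, map_mul, mul_inv_rev]
    calc lamV a * lamV b * ((Λ b)⁻¹ * (Λ a)⁻¹) = lamV a * ((lamV b * (Λ b)⁻¹) * (Λ a)⁻¹) := by group
      _ = lamV a * ((Λ a)⁻¹ * (lamV b * (Λ b)⁻¹)) := by rw [h1]
      _ = _ := by group)
  have hμ : ∀ v, μ v = lamV v * (Λ v)⁻¹ := fun _ => rfl
  have hμ1 : ∀ v, μ v = 1 := by
    let PV : Sylow p V := P.subtype hPV
    have h1 : Cfsg.pResidual p V ⊔ (PV : Subgroup V) ≤ μ.ker := by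
      apply sup_le
      · intro x hx
        exact MonoidHom.mem_ker.mpr (hom_pResidual_eq_one hX μ hx)
      · intro x hx
        have hxP : (x : G) ∈ (P : Subgroup G) := hx
        rw [MonoidHom.mem_ker, hμ]
        have h2 := hΛ ⟨x, hxP⟩
        change Λ (x : G) = lamV (Subgroup.inclusion hPV ⟨x, hxP⟩) at h2
        have h3 : Subgroup.inclusion hPV ⟨x, hxP⟩ = x := rfl
        rw [h2, h3, mul_inv_cancel]
    rw [pResidual_sup] at h1
    intro v
    exact MonoidHom.mem_ker.mp (h1 (Subgroup.mem_top v))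
  intro v
  have h1 := hμ1 v
  rw [hμ, hlamV] at h1
  change ψ v * (Λ v)⁻¹ = β v
  have h2 := Subgroup.mem_center_iff.mp (hZc (Z.inv_mem (hΛZ v))) (β v)⁻¹
  have h3 : ψ v * (Λ v)⁻¹ * (β v)⁻¹ = 1 := by
    rw [mul_assoc, ← h2, ← mul_assoc]; exact h1
  exact mul_inv_eq_one.mp h3


/-- a homomorphism of order `p` from `V` not killing `P ∩ G'` -/
theorem exists_lam [Finite G] {p : ℕ} [hp : Fact p.Prime] (P : Sylow p G) (V : Subgroup G)
    (hPV : (P : Subgroup G) ≤ V)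
    (h : ∃ y ∈ (P : Subgroup G), y ∈ commutator G ∧ y ∉ ⁅V, V⁆) :
    ∃ (lam : V →* Multiplicative (ZMod p)) (u : V), (u : G) ∈ (P : Subgroup G) ∧
      (u : G) ∈ commutator G ∧ lam u ≠ 1 := by
  by_contra hcon
  push Not at hcon
  obtain ⟨y, hyP, hyG, hyV⟩ := h
  apply hyV
  have hmod : ∀ (Z : Type u) [Group Z], Nat.card Z = p → ∀ lam : V →* Z,
      ∀ y : V, (y : G) ∈ (P : Subgroup G) → (y : G) ∈ commutator G → lam y = 1 := by
    intro Z _ hZ lam y hy1 hy2
    have hcyc : IsCyclic Z := isCyclic_of_prime_card hZ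
    have hcyc2 : IsCyclic (Multiplicative (ZMod p)) :=
      isCyclic_of_prime_card (p := p) (by simp)
    obtain ⟨e⟩ : Nonempty (Z ≃* Multiplicative (ZMod p)) :=
      ⟨mulEquivOfCyclicCardEq (by rw [hZ]; simp)⟩
    have h1 := hcon (e.toMonoidHom.comp lam) y hy1 hy2
    have h2 : e (lam y) = 1 := h1
    exact (map_eq_one_iff e e.injective).mp h2
  let PV : Sylow p V := P.subtype hPV
  let K : Subgroup (PV : Subgroup V) := (commutator V).subgroupOf (PV : Subgroup V)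
  have hKn : K.Normal := Subgroup.normal_subgroupOf
  obtain ⟨β, hβ, -⟩ := extend_hom PV (QuotientGroup.mk' K) (by
    intro y hy
    exact (QuotientGroup.eq_one_iff y).mpr hy)
  have hX : IsPGroup p ((PV : Subgroup V) ⧸ K) := PV.isPGroup'.to_quotient K
  obtain ⟨ψ, hψ⟩ := tate_mod P V hPV hmod _ ((PV : Subgroup V) ⧸ K) rfl hX β
  have hcom : ∀ a b : (PV : Subgroup V) ⧸ K, a * b = b * a := by
    intro a b
    obtain ⟨a, rfl⟩ := QuotientGroup.mk'_surjective K a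
    obtain ⟨b, rfl⟩ := QuotientGroup.mk'_surjective K b
    rw [← map_mul, ← map_mul]
    change ((a * b : (PV : Subgroup V)) : (PV : Subgroup V) ⧸ K) = ((b * a : (PV : Subgroup V)) : _)
    rw [QuotientGroup.eq]
    change (((a * b)⁻¹ * (b * a) : (PV : Subgroup V)) : V) ∈ commutator V
    have h1 : (((a * b)⁻¹ * (b * a) : (PV : Subgroup V)) : V) =
        ⁅((b : V))⁻¹, ((a : V))⁻¹⁆ := by
      rw [commutatorElement_def]
      push_cast
      group
    rw [h1]
    exact Subgroup.commutator_mem_commutator (Subgroup.mem_top _) (Subgroup.mem_top _)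
  have hker : commutator G ≤ ψ.ker := by
    rw [commutator_def, Subgroup.commutator_le]
    intro a _ b _
    rw [MonoidHom.mem_ker, map_commutatorElement, commutatorElement_eq_one_iff_mul_comm]
    exact hcom _ _
  have h1 : ψ y = 1 := MonoidHom.mem_ker.mp (hker hyG)
  have h2 := hψ ⟨y, hPV hyP⟩
  change ψ y = _ at h2
  have h3 := hβ ⟨⟨y, hPV hyP⟩, hyP⟩
  rw [← h2, h1] at h3
  have h4 := (QuotientGroup.eq_one_iff _).mp h3.symm
  have h5 : (⟨y, hPV hyP⟩ : V) ∈ commutator V := h4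
  have h6 := Subgroup.mem_map_of_mem V.subtype h5
  rw [commutator_def, Subgroup.map_commutator] at h6
  rw [← MonoidHom.range_eq_map, Subgroup.range_subtype] at h6
  exact h6

end CfsgLib.WY
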