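import Mathlib
import Cfsg.Agent.LibWY2

/-! Wielandt / Yoshida transfer arguments, part 3 -/

set_option autoImplicit false
set_option linter.all false

open scoped commutatorElement

namespace CfsgLib.WY

open CfsgLib.SolvBasic CfsgLib.Tate

universe u v w

variable {G : Type u} [Group G]

/-- choice of `u` of minimal order -/
theorem exists_min [Finite G] {p : ℕ} [hp : Fact p.Prime] (P : Sylow p G) (V : Subgroup G)
    (hPV : (P : Subgroup G) ≤ V) (lam : V →* Multiplicative (ZMod p))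
    (h : ∃ u : V, (u : G) ∈ (P : Subgroup G) ∧ (u : G) ∈ commutator G ∧ lam u ≠ 1) :
    ∃ u : V, (u : G) ∈ (P : Subgroup G) ∧ (u : G) ∈ commutator G ∧ lam u ≠ 1 ∧
      ∀ (v : V) (k : ℕ) (g : G), p ∣ k → (v : G) = g * (u : G) ^ k * g⁻¹ → lam v = 1 := by
  classical
  have hex : ∃ n, ∃ u : V, ((u : G) ∈ (P : Subgroup G) ∧ (u : G) ∈ commutator G ∧ lam u ≠ 1) ∧
      orderOf (u : G) = n := by
    obtain ⟨u, hu⟩ := h
    exact ⟨_, u, hu, rfl⟩
  obtain ⟨u, ⟨hu1, hu2, hu3⟩, hun⟩ := Nat.find_spec hex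
  refine ⟨u, hu1, hu2, hu3, ?_⟩
  intro v k g hk hv
  by_contra hne
  -- v is a p-element of V
  have hvp : IsPGroup p (Subgroup.zpowers v) := by
    rw [IsPGroup.iff_card, Nat.card_zpowers]
    obtain ⟨a, ha⟩ := IsPGroup.iff_orderOf.mp P.isPGroup' ⟨(u : G), hu1⟩
    rw [← Subgroup.orderOf_coe] at ha
    change orderOf (u : G) = p ^ a at ha
    have h1 : orderOf v ∣ p ^ a := by
      rw [← Subgroup.orderOf_coe, hv]
      have h2 : orderOf (g * (u : G) ^ k * g⁻¹) = orderOf ((u : G) ^ k) :=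
        orderOf_injective (MulAut.conj g).toMonoidHom (MulAut.conj g).injective ((u : G) ^ k)
      rw [h2, ← ha]
      exact orderOf_pow_dvd k
    obtain ⟨b, -, hb⟩ := (Nat.dvd_prime_pow hp.out).mp h1
    exact ⟨b, hb⟩
  obtain ⟨Q, hQ⟩ := hvp.exists_le_sylow
  obtain ⟨n, hn⟩ := MulAction.exists_smul_eq V Q (P.subtype hPV)
  have hw : n * v * n⁻¹ ∈ (P.subtype hPV : Subgroup V) := by
    rw [← hn]
    exact ⟨v, hQ (Subgroup.mem_zpowers v), rfl⟩
  have hwP : ((n * v * n⁻¹ : V) : G) ∈ (P : Subgroup G) := hw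
  have hwG : ((n * v * n⁻¹ : V) : G) ∈ commutator G := by
    have h1 : (v : G) ∈ commutator G := by
      rw [hv]
      exact (inferInstance : (commutator G).Normal).conj_mem _ ((commutator G).pow_mem hu2 k) g
    push_cast
    exact (inferInstance : (commutator G).Normal).conj_mem _ h1 _
  have hwl : lam (n * v * n⁻¹) ≠ 1 := by
    rw [map_mul, map_mul, map_inv, mul_right_comm, mul_inv_cancel, one_mul]
    exact hne
  have hmin := Nat.find_min' hex ⟨n * v * n⁻¹, ⟨hwP, hwG, hwl⟩, rfl⟩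
  rw [← hun] at hmin
  have ho : orderOf ((n * v * n⁻¹ : V) : G) = orderOf ((u : G) ^ k) := by
    have h1 : ((n * v * n⁻¹ : V) : G) = ((n : G) * g) * (u : G) ^ k * ((n : G) * g)⁻¹ := by
      push_cast
      rw [hv]
      group
    rw [h1]
    exact orderOf_injective (MulAut.conj ((n : G) * g)).toMonoidHom
      (MulAut.conj ((n : G) * g)).injective ((u : G) ^ k)
  rw [ho, orderOf_pow] at hmin
  have hup : p ∣ orderOf (u : G) := by
    obtain ⟨a, ha⟩ := IsPGroup.iff_orderOf.mp P.isPGroup' ⟨(u : G), hu1⟩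
    rw [← Subgroup.orderOf_coe] at ha
    change orderOf (u : G) = p ^ a at ha
    rw [ha]
    apply dvd_pow_self
    rintro rfl
    rw [pow_zero, orderOf_eq_one_iff] at ha
    apply hu3
    have h2 : u = 1 := Subtype.ext ha
    rw [h2, map_one]
  have hg : p ∣ Nat.gcd (orderOf (u : G)) k := Nat.dvd_gcd hup hk
  have hpos : 0 < orderOf (u : G) := orderOf_pos _
  have hgp : 2 ≤ Nat.gcd (orderOf (u : G)) k :=
    hp.out.two_le.trans (Nat.le_of_dvd (Nat.gcd_pos_of_pos_left _ hpos) hg)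
  have := Nat.div_lt_self hpos hgp
  omega

open Classical in
/-- extension by one -/
noncomputable def Lam (N : Subgroup G) {C : Type v} [CommGroup C] (lam : N →* C) (g : G) : C :=
  if h : g ∈ N then lam ⟨g, h⟩ else 1

theorem Lam_mem {N : Subgroup G} {C : Type v} [CommGroup C] (lam : N →* C) {g : G} (h : g ∈ N) :
    Lam N lam g = lam ⟨g, h⟩ := dif_pos h

theorem Lam_mul {N : Subgroup G} {C : Type v} [CommGroup C] (lam : N →* C) {g g' : G} (h : g ∈ N)
    (h' : g' ∈ N) : Lam N lam (g * g') = Lam N lam g * Lam N lam g' := by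
  rw [Lam_mem lam h, Lam_mem lam h', Lam_mem lam (N.mul_mem h h'), ← map_mul]
  rfl

/-- the cocycle of `lam` -/
noncomputable def cc (N : Subgroup G) {C : Type v} [CommGroup C] (lam : N →* C) (g : G)
    (x : G ⧸ N) : C := Lam N lam ((g • x).out⁻¹ * g * x.out)

theorem cc_mem (N : Subgroup G) (g : G) (x : G ⧸ N) : (g • x).out⁻¹ * g * x.out ∈ N := by
  rw [mul_assoc, ← QuotientGroup.eq]
  rw [QuotientGroup.out_eq']
  have h1 : ((g * x.out : G) : G ⧸ N) = g • ((x.out : G) : G ⧸ N) := rfl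
  rw [h1, QuotientGroup.out_eq']

theorem cc_mul (N : Subgroup G) {C : Type v} [CommGroup C] (lam : N →* C) (g g' : G)
    (x : G ⧸ N) : cc N lam (g * g') x = cc N lam g (g' • x) * cc N lam g' x := by
  rw [cc, cc, cc, ← Lam_mul lam (cc_mem N g (g' • x)) (cc_mem N g' x), mul_smul]
  congr 1
  group

open Classical in
/-- the point `q₁` -/
theorem exists_point [Finite G] {p : ℕ} [hp : Fact p.Prime] (P : Sylow p G) (N : Subgroup G)
    (hPN : (P : Subgroup G) ≤ N) (lam : N →* Multiplicative (ZMod p)) (u : N)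
    (hu1 : (u : G) ∈ (P : Subgroup G)) (hu2 : (u : G) ∈ commutator G) (hu3 : lam u ≠ 1)
    (hmin : ∀ (v : N) (k : ℕ) (g : G), p ∣ k → (v : G) = g * (u : G) ^ k * g⁻¹ → lam v = 1) :
    (∀ g : G, ∀ x : G ⧸ N, (g * u * g⁻¹) • x ≠ x → ∀ k : ℕ, (g * u * g⁻¹) ^ k • x = x →
      cc N lam ((g * u * g⁻¹) ^ k) x = 1) ∧
    ∃ q₁ : G ⧸ N, q₁ ≠ ((1 : G) : G ⧸ N) ∧ ∀ O : Finset (G ⧸ N),
      (∀ q, q ∈ O ↔ ∃ b ∈ (P : Subgroup G), b • q₁ = q) →
      ∏ q ∈ O, ell (cc N lam) (u : G) q ≠ 1 := by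
  have hfin : Finite (G ⧸ N) := inferInstance
  let _ : Fintype (G ⧸ N) := Fintype.ofFinite _
  have hord : ∃ a, orderOf (u : G) = p ^ a := by
    obtain ⟨a, ha⟩ := IsPGroup.iff_orderOf.mp P.isPGroup' ⟨(u : G), hu1⟩
    rw [← Subgroup.orderOf_coe] at ha
    exact ⟨a, ha⟩
  have hstar : ∀ g : G, ∀ x : G ⧸ N, (g * u * g⁻¹) • x ≠ x → ∀ k : ℕ,
      (g * u * g⁻¹) ^ k • x = x → cc N lam ((g * u * g⁻¹) ^ k) x = 1 := by
    intro g x hx k hk
    have hpk : p ∣ k := by
      rw [MulAction.pow_smul_eq_iff_minimalPeriod_dvd] at hk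
      obtain ⟨a, ha⟩ := hord
      have h1 : Function.minimalPeriod ((g * u * g⁻¹ : G) • ·) x ∣ p ^ a := by
        rw [← MulAction.pow_smul_eq_iff_minimalPeriod_dvd, conj_pow, ← ha, pow_orderOf_eq_one,
          mul_one, mul_inv_cancel, one_smul]
      obtain ⟨b, -, hb⟩ := (Nat.dvd_prime_pow hp.out).mp h1
      rcases Nat.eq_zero_or_pos b with rfl | hb0
      · exfalso
        apply hx
        have h2 : (g * u * g⁻¹ : G) ^ 1 • x = x := by
          rw [MulAction.pow_smul_eq_iff_minimalPeriod_dvd, hb, pow_zero]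
        rwa [pow_one] at h2
      · rw [hb] at hk
        exact (dvd_pow_self p hb0.ne').trans hk
    have h1 := cc_mem N ((g * u * g⁻¹) ^ k) x
    rw [cc, Lam_mem lam h1]
    apply hmin _ k (x.out⁻¹ * g) hpk
    change (((g * u * g⁻¹ : G) ^ k • x).out)⁻¹ * (g * u * g⁻¹ : G) ^ k * x.out = _
    rw [hk, conj_pow]
    group
  refine ⟨hstar, ?_⟩
  obtain ⟨q₀, hq₀⟩ : ∃ q₀ : G ⧸ N, q₀ = ((1 : G) : G ⧸ N) := ⟨_, rfl⟩
  have hfix : ∀ s ∈ N, s • q₀ = q₀ := by
    intro s hs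
    rw [hq₀]
    change ((s * 1 : G) : G ⧸ N) = ((1 : G) : G ⧸ N)
    rw [mul_one]
    exact ((QuotientGroup.eq).mpr (by simpa using hs)).symm
  have hcc := cc_mul N lam
  -- total transfer
  let T : G →* Multiplicative (ZMod p) := MonoidHom.mk' (fun y => ∏ x : G ⧸ N, cc N lam y x)
    (fun a b => T_mul (cc N lam) hcc Finset.univ a b (fun x => by simp))
  have hT : T u = 1 := by
    have h1 : commutator G ≤ T.ker := by
      rw [commutator_def, Subgroup.commutator_le]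
      intro a _ b _
      rw [MonoidHom.mem_ker, map_commutatorElement, commutatorElement_eq_one_iff_mul_comm, mul_comm]
    exact MonoidHom.mem_ker.mp (h1 hu2)
  have hL : ∏ x : G ⧸ N, ell (cc N lam) (u : G) x = 1 := by
    rw [← T_eq_L (cc N lam) hcc (u : G) Finset.univ (fun x => by simp) (by
      intro x _ hx k hk
      have h1 := hstar 1 x
      rw [inv_one, mul_one, one_mul] at h1
      exact h1 hx k hk)]
    exact hT
  have hl0 : ell (cc N lam) (u : G) q₀ = lam u := by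
    rw [ell_fix _ (hfix u u.2), cc]
    have hm := cc_mem N (u : G) q₀
    have hout : q₀.out ∈ N := by
      have h1 : ((q₀.out : G) : G ⧸ N) = ((1 : G) : G ⧸ N) := by rw [QuotientGroup.out_eq', hq₀]
      rw [QuotientGroup.eq] at h1
      rw [mul_one] at h1
      exact (N.inv_mem_iff).mp h1
    rw [hfix u u.2, Lam_mul lam (N.mul_mem (N.inv_mem hout) u.2) hout,
      Lam_mul lam (N.inv_mem hout) u.2, mul_right_comm, ← Lam_mul lam (N.inv_mem hout) hout,
      inv_mul_cancel, Lam_mem lam N.one_mem, Lam_mem lam u.2]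
    have h2 : lam ⟨1, N.one_mem⟩ = 1 := map_one lam
    rw [h2, one_mul]
  have hne : ∏ x ∈ Finset.univ.erase q₀, ell (cc N lam) (u : G) x ≠ 1 := by
    intro h1
    rw [← Finset.mul_prod_erase Finset.univ _ (Finset.mem_univ q₀), h1, mul_one, hl0] at hL
    exact hu3 hL
  obtain ⟨q₁, hq₁, hF⟩ := exists_fiber (Finset.univ.erase q₀)
    (fun x => MulAction.orbit (P : Subgroup G) x) _ hne
  have hq₁' : q₁ ≠ q₀ := Finset.ne_of_mem_erase hq₁
  refine ⟨q₁, by rwa [← hq₀], ?_⟩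
  intro O hO
  apply hF
  intro x
  rw [hO]
  change _ ↔ x ∈ Finset.univ.erase q₀ ∧ MulAction.orbit (P : Subgroup G) x =
    MulAction.orbit (P : Subgroup G) q₁
  rw [MulAction.orbit_eq_iff]
  constructor
  · rintro ⟨b, hb, rfl⟩
    refine ⟨Finset.mem_erase.mpr ⟨?_, Finset.mem_univ _⟩, ⟨⟨b, hb⟩, rfl⟩⟩
    intro h1
    apply hq₁'
    have h2 : b⁻¹ • (b • q₁) = b⁻¹ • q₀ := by rw [h1]
    rw [inv_smul_smul, hfix _ (N.inv_mem (hPN hb))] at h2
    exact h2
  · rintro ⟨-, ⟨⟨b, hb⟩, rfl⟩⟩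
    exact ⟨b, hb, rfl⟩

end CfsgLib.WY
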