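import Mathlib
import Cfsg.Agent.LibWY3

/-! Wielandt / Yoshida transfer arguments, part 4 -/

set_option autoImplicit false
set_option linter.all false

open scoped commutatorElement fwdDiff
open Pointwise

namespace CfsgLib.WY

open CfsgLib.SolvBasic CfsgLib.Tate CfsgLib.SolvCoprime CfsgLib.TransPC CfsgLib.TransFus

universe u v w

theorem choose_pred_cast {p : ℕ} [hp : Fact p.Prime] (k : ℕ) (hk : k < p) :
    (((p - 1).choose k : ℕ) : ZMod p) = (-1) ^ k := by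
  induction k with
  | zero => simp
  | succ k ih =>
    have h1 := Nat.choose_succ_succ (p - 1) k
    have h2 : (p - 1).succ = p := by have := hp.out.pos; omega
    rw [h2] at h1
    have h3 : ((p.choose k.succ : ℕ) : ZMod p) = 0 :=
      (ZMod.natCast_eq_zero_iff _ _).mpr (hp.out.dvd_choose_self (Nat.succ_ne_zero k) hk)
    rw [h1] at h3
    push_cast at h3
    rw [ih (by omega)] at h3
    rw [pow_succ, mul_neg_one]
    exact (neg_eq_of_add_eq_zero_right h3).symm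

theorem fwdDiff_sum {p : ℕ} [hp : Fact p.Prime] (f : ℕ → ZMod p) :
    (fwdDiff 1)^[p - 1] f 0 = ∑ i ∈ Finset.range p, f i := by
  rw [fwdDiff_iter_eq_sum_shift]
  have h2 : p - 1 + 1 = p := by have := hp.out.pos; omega
  rw [h2]
  apply Finset.sum_congr rfl
  intro k hk
  have hk' := Finset.mem_range.mp hk
  rw [zero_add, smul_eq_mul, mul_one, zsmul_eq_mul]
  push_cast
  rw [choose_pred_cast k hk', ← pow_add, Nat.sub_add_cancel (by omega)]
  have h3 : (-1 : ZMod p) ^ (p - 1) = 1 :=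
    ZMod.pow_card_sub_one_eq_one (neg_ne_zero.mpr one_ne_zero)
  rw [h3, one_mul]

variable {G : Type u} [Group G]

/-- the Frattini subgroup is killed by homs of order `p` -/
theorem frattini_le_ker {p : ℕ} [hp : Fact p.Prime] (ν : G →* Multiplicative (ZMod p)) :
    frattini G ≤ ν.ker := by
  by_cases h : ν.ker = ⊤
  · rw [h]; exact le_top
  · apply frattini_le_coatom
    refine ⟨h, ?_⟩
    intro H hH
    have hs : Function.Surjective ν := by
      rw [← MonoidHom.range_eq_top]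
      have hr : ν.range ≠ ⊥ := fun h1 => h (by rwa [MonoidHom.range_eq_bot_iff, ← MonoidHom.ker_eq_top_iff] at h1)
      have hsim : IsSimpleGroup (Multiplicative (ZMod p)) := isSimpleGroup_of_prime_card (p := p) (by simp)
      rcases Subgroup.Normal.eq_bot_or_eq_top (inferInstance : ν.range.Normal) with h1 | h1
      · exact absurd h1 hr
      · exact h1
    obtain ⟨x, hxH, hxk⟩ := SetLike.exists_of_lt hH
    rw [eq_top_iff]
    intro y _
    have hsim : IsSimpleGroup (Multiplicative (ZMod p)) := isSimpleGroup_of_prime_card (p := p) (by simp)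
    have hz : Subgroup.zpowers (ν x) = ⊤ := by
      rcases Subgroup.Normal.eq_bot_or_eq_top (inferInstance : (Subgroup.zpowers (ν x)).Normal) with h1 | h1
      · rw [Subgroup.zpowers_eq_bot] at h1
        exact absurd (MonoidHom.mem_ker.mpr h1) hxk
      · exact h1
    have hy : ν y ∈ Subgroup.zpowers (ν x) := by rw [hz]; trivial
    obtain ⟨k, hk⟩ := Subgroup.mem_zpowers_iff.mp hy
    have h2 : y * (x ^ k)⁻¹ ∈ ν.ker := by
      rw [MonoidHom.mem_ker, map_mul, map_inv, map_zpow, hk, mul_inv_cancel]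
    have h3 := H.mul_mem (hH.le h2) (H.zpow_mem hxH k)
    rwa [inv_mul_cancel_right] at h3

theorem mem_of_zpow_mem {p : ℕ} [hp : Fact p.Prime] (M : Subgroup G) (z : G) (a : ℕ)
    (hz : orderOf z = p ^ a) (k : ℤ) (hk : ¬ (p : ℤ) ∣ k) (h : z ^ k ∈ M) : z ∈ M := by
  have hco : IsCoprime k ((p : ℤ) ^ a) := by
    apply IsCoprime.pow_right
    rw [isCoprime_comm]
    exact (Prime.coprime_iff_not_dvd (Nat.prime_iff_prime_int.mp hp.out)).mpr hk
  obtain ⟨r, s, hrs⟩ := hco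
  have h1 : z = (z ^ k) ^ r * (z ^ ((p : ℤ) ^ a)) ^ s := by
    rw [← zpow_mul, ← zpow_mul, ← zpow_add]
    rw [mul_comm k r, mul_comm _ s, hrs, zpow_one]
  have h2 : z ^ ((p : ℤ) ^ a) = 1 := by
    have h3 : ((p : ℤ) ^ a) = ((p ^ a : ℕ) : ℤ) := by push_cast; rfl
    rw [h3, zpow_natCast, ← hz, pow_orderOf_eq_one]
  rw [h2, one_zpow, mul_one] at h1
  rw [h1]
  exact M.zpow_mem h r

/-- the commutator step -/
def dl (z y : G) : G := y⁻¹ * z⁻¹ * y * z

open Classical in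
/-- **Main computation** -/
theorem main_aux [Finite G] {p : ℕ} [hp : Fact p.Prime] (P : Sylow p G) {Ω : Type v} [MulAction G Ω]
    [Finite Ω] (c : G → Ω → Multiplicative (ZMod p))
    (hc : ∀ g g' x, c (g * g') x = c g (g' • x) * c g' x) (u : G) (hu : u ∈ (P : Subgroup G))
    (hstar : ∀ g : G, ∀ x : Ω, (g * u * g⁻¹) • x ≠ x → ∀ k : ℕ, (g * u * g⁻¹) ^ k • x = x →
      c ((g * u * g⁻¹) ^ k) x = 1)
    (q₁ : Ω) (hq : ∀ O : Finset Ω, (∀ q, q ∈ O ↔ ∃ b ∈ (P : Subgroup G), b • q₁ = q) →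
      ∏ q ∈ O, ell c u q ≠ 1)
    (W : Subgroup G) (hWP : W ≤ (P : Subgroup G))
    (hWn : ∀ s ∈ (P : Subgroup G), ∀ w ∈ W, s * w * s⁻¹ ∈ W)
    (hWq : ¬ W ≤ MulAction.stabilizer G q₁) :
    ∃ x ∈ (P : Subgroup G), ∃ z ∈ W, ∃ W₀ : Subgroup W, IsCoatom W₀ ∧
      (dl z)^[p - 1] x ∈ W₀.map W.subtype ∧
      (dl z)^[p - 1] x ∉ ((frattini W₀).map W₀.subtype).map W.subtype := by
  let _ : Fintype Ω := Fintype.ofFinite _
  -- choice of M
  obtain ⟨M, hXM, hMmax⟩ := Set.Finite.exists_le_maximal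
    (Set.toFinite {M : Subgroup G | M ≤ (P : Subgroup G) ∧ ¬ W ≤ M})
    (show (P : Subgroup G) ⊓ MulAction.stabilizer G q₁ ∈ {M : Subgroup G | M ≤ (P : Subgroup G) ∧ ¬ W ≤ M} from
      ⟨inf_le_left, fun h => hWq (h.trans inf_le_right)⟩)
  obtain ⟨⟨hMP, hWM⟩, hmax'⟩ := hMmax
  have hmax : ∀ M' : Subgroup G, M < M' → M' ≤ (P : Subgroup G) → W ≤ M' := by
    intro M' h1 h2
    by_contra h3
    exact absurd (hmax' ⟨h2, h3⟩ h1.le) (not_le_of_gt h1)
  have hMltP : M < (P : Subgroup G) := lt_of_le_of_ne hMP (by rintro rfl; exact hWM hWP)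
  have hWN : W ≤ Subgroup.normalizer (M : Set G) :=
    (hmax _ (lt_inf_normalizer_of_pgroup P.isPGroup' hMltP) inf_le_left).trans inf_le_right
  obtain ⟨z, hzW, hzM⟩ := SetLike.not_le_iff_exists.mp hWM
  obtain ⟨a, ha⟩ : ∃ a, orderOf z = p ^ a := by
    obtain ⟨a, ha⟩ := IsPGroup.iff_orderOf.mp P.isPGroup' ⟨z, hWP hzW⟩
    rw [← Subgroup.orderOf_coe] at ha
    exact ⟨a, ha⟩
  -- joins with cyclic groups
  have hjoin : ∀ h ∈ W, h ∉ M → ∀ w ∈ Subgroup.zpowers h ⊔ M, ∃ k : ℤ, ∃ m ∈ M, w = h ^ k * m := by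
    intro h hh _ w hw
    have h1 : (w : G) ∈ ((Subgroup.zpowers h ⊔ M : Subgroup G) : Set G) := hw
    rw [Subgroup.coe_mul_of_left_le_normalizer_right _ _
      ((Subgroup.zpowers_le.mpr hh).trans hWN)] at h1
    obtain ⟨_, ⟨k, rfl⟩, m, hm, rfl⟩ := h1
    exact ⟨k, m, hm, rfl⟩
  have hWle : ∀ h ∈ W, h ∉ M → W ≤ Subgroup.zpowers h ⊔ M := by
    intro h hh hhM
    apply hmax
    · refine lt_of_le_of_ne le_sup_right ?_
      intro h1
      apply hhM
      rw [h1]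
      exact (le_sup_left : Subgroup.zpowers h ≤ Subgroup.zpowers h ⊔ M) (Subgroup.mem_zpowers h)
    · exact sup_le (Subgroup.zpowers_le.mpr (hWP hh)) hMP
  have hzp : z ^ p ∈ M := by
    by_contra hne
    have h1 := hWle (z ^ p) (W.pow_mem hzW p) hne hzW
    obtain ⟨k, m, hm, h2⟩ := hjoin (z ^ p) (W.pow_mem hzW p) hne z h1
    apply hzM
    apply mem_of_zpow_mem M z a ha (1 - p * k)
    · intro h3
      have h4 : (p : ℤ) ∣ 1 := by
        have h5 := dvd_add h3 (dvd_mul_right (p : ℤ) k)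
        rwa [sub_add_cancel] at h5
      have h6 := Int.natCast_dvd_natCast.mp (by simpa using h4 : ((p : ℕ) : ℤ) ∣ ((1 : ℕ) : ℤ))
      exact hp.out.not_dvd_one h6
    · have h7 : z ^ (1 - (p : ℤ) * k) = m := by
        have h8 : m = ((z ^ p) ^ k)⁻¹ * z := eq_inv_mul_of_mul_eq h2.symm
        rw [h8, ← zpow_natCast, ← zpow_mul, ← zpow_neg, ← zpow_add_one]
        congr 1
        ring
      rw [h7]; exact hm
  obtain ⟨R, hR⟩ : ∃ R : Subgroup G, R = Subgroup.zpowers z ⊔ M := ⟨_, rfl⟩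
  have hMR : M ≤ R := by rw [hR]; exact le_sup_right
  have hzR : z ∈ R := by
    rw [hR]
    exact (le_sup_left : Subgroup.zpowers z ≤ Subgroup.zpowers z ⊔ M) (Subgroup.mem_zpowers z)
  have hRP : R ≤ (P : Subgroup G) := by
    rw [hR]; exact sup_le (Subgroup.zpowers_le.mpr (hWP hzW)) hMP
  have hRN : R ≤ Subgroup.normalizer (M : Set G) := by
    rw [hR]; exact sup_le ((Subgroup.zpowers_le.mpr hzW).trans hWN) Subgroup.le_normalizer
  have hdec : ∀ r ∈ R, ∃ i < p, ∃ m ∈ M, r = z ^ i * m := by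
    intro r hr
    rw [hR] at hr
    obtain ⟨k, m, hm, rfl⟩ := hjoin z hzW hzM r hr
    have hp0 : (p : ℤ) ≠ 0 := by exact_mod_cast hp.out.ne_zero
    have h1 := Int.emod_nonneg k hp0
    have h2 := Int.emod_lt_of_pos k (by exact_mod_cast hp.out.pos : (0 : ℤ) < p)
    refine ⟨(k % (p : ℤ)).toNat, by omega, (z ^ p) ^ (k / (p : ℤ)) * m,
      M.mul_mem (M.zpow_mem hzp _) hm, ?_⟩
    rw [← mul_assoc]
    congr 1
    rw [← zpow_natCast z (k % (p : ℤ)).toNat, Int.toNat_of_nonneg h1, ← zpow_natCast z p,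
      ← zpow_mul, ← zpow_add, Int.emod_add_mul_ediv]
  have hzi : ∀ i < p, z ^ i ∈ M → i = 0 := by
    intro i hi h1
    by_contra hne
    apply hzM
    apply mem_of_zpow_mem M z a ha i
    · intro h2
      have h3 := Int.natCast_dvd_natCast.mp h2
      exact absurd (Nat.le_of_dvd (Nat.pos_of_ne_zero hne) h3) (by omega)
    · rw [zpow_natCast]; exact h1
  have hX : ∀ b ∈ (P : Subgroup G), b • q₁ = q₁ → b ∈ M := fun b hb h => hXM ⟨hb, h⟩
  -- orbits
  let OP : Finset Ω := Finset.univ.filter (fun q => ∃ b ∈ (P : Subgroup G), b • q₁ = q)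
  let OR : Finset Ω := Finset.univ.filter (fun q => ∃ b ∈ R, b • q₁ = q)
  let OM : Finset Ω := Finset.univ.filter (fun q => ∃ b ∈ M, b • q₁ = q)
  have hOP : ∀ q, q ∈ OP ↔ ∃ b ∈ (P : Subgroup G), b • q₁ = q := fun q => by simp [OP]
  have hOR : ∀ q, q ∈ OR ↔ ∃ b ∈ R, b • q₁ = q := fun q => by simp [OR]
  have hOM : ∀ q, q ∈ OM ↔ ∃ b ∈ M, b • q₁ = q := fun q => by simp [OM]
  obtain ⟨b, hb, hb1⟩ := block R (P : Subgroup G) hRP q₁ (fun b hb h => hMR (hX b hb h)) OP OR hOP hOR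
    (ell c u) (hq OP hOP)
  obtain ⟨x, hx⟩ : ∃ x, x = b⁻¹ * u * b := ⟨_, rfl⟩
  have hxP : x ∈ (P : Subgroup G) := by
    rw [hx]; exact Subgroup.mul_mem _ (Subgroup.mul_mem _ (Subgroup.inv_mem _ hb) hu) hb
  have hb2 : ∏ q ∈ OR, ell c x q ≠ 1 := by
    intro h1
    apply hb1
    rw [← h1]
    apply Finset.prod_congr rfl
    intro q _
    rw [ell_smul c hc, hx]
  have hxM : x ∈ M := by
    obtain ⟨q, hqR, hq1⟩ := Finset.exists_ne_one_of_prod_ne_one hb2
    have hxq := fix_of_ell_ne c hq1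
    obtain ⟨r, hr, rfl⟩ := (hOR q).mp hqR
    have h1 : r⁻¹ * x * r ∈ M := by
      apply hX
      · exact Subgroup.mul_mem _ (Subgroup.mul_mem _ (Subgroup.inv_mem _ (hRP hr)) hxP) (hRP hr)
      · rw [mul_smul, mul_smul, hxq, inv_smul_smul]
    have h2 := (Subgroup.mem_normalizer_iff.mp (hRN hr) _).mp h1
    have h3 : r * (r⁻¹ * x * r) * r⁻¹ = x := by group
    rwa [h3] at h2
  rw [cyclic_block M R q₁ z p hMR hzR hdec hzi (fun b hb h => hX b (hRP hb) h) OR OM hOR hOM] at hb2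
  -- the hom ν
  obtain ⟨T, hT⟩ : ∃ T : G → Multiplicative (ZMod p), T = fun y => ∏ q ∈ OM, c y q := ⟨_, rfl⟩
  have hinv : ∀ y ∈ M, ∀ q, y • q ∈ OM ↔ q ∈ OM := by
    intro y hy q
    rw [hOM, hOM]
    constructor
    · rintro ⟨b, hb, h⟩
      exact ⟨y⁻¹ * b, M.mul_mem (M.inv_mem hy) hb, by rw [mul_smul, h, inv_smul_smul]⟩
    · rintro ⟨b, hb, rfl⟩
      exact ⟨y * b, M.mul_mem hy hb, by rw [mul_smul]⟩
  have hTmul : ∀ y, ∀ y' ∈ M, T (y * y') = T y * T y' := by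
    intro y y' hy'
    rw [hT]
    exact T_mul c hc OM y y' (hinv y' hy')
  have hT1 : T 1 = 1 := by
    have h1 := hTmul 1 1 M.one_mem
    rw [mul_one] at h1
    exact left_eq_mul.mp h1
  have hTinv : ∀ y ∈ M, T y⁻¹ = (T y)⁻¹ := by
    intro y hy
    have h1 := hTmul y⁻¹ y hy
    rw [inv_mul_cancel, hT1] at h1
    exact eq_inv_of_mul_eq_one_left h1.symm
  -- conjugation by powers of z
  have hcz : ∀ (i : ℕ), ∀ y ∈ M, (z ^ i)⁻¹ * y * z ^ i ∈ M := by
    intro i y hy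
    have h1 := (Subgroup.mem_normalizer_iff''.mp (hRN (R.pow_mem hzR i)) y).mp hy
    exact h1
  have hprod : ∏ i ∈ Finset.range p, T ((z ^ i)⁻¹ * x * z ^ i) ≠ 1 := by
    intro h1
    apply hb2
    rw [← h1]
    apply Finset.prod_congr rfl
    intro i _
    rw [hT]
    change _ = ∏ q ∈ OM, c ((z ^ i)⁻¹ * x * z ^ i) q
    rw [T_eq_L c hc ((z ^ i)⁻¹ * x * z ^ i) OM (hinv _ (hcz i x hxM)) (by
      intro q _ hq2 k hk
      have h3 : (z ^ i)⁻¹ * x * z ^ i = ((z ^ i)⁻¹ * b⁻¹) * u * ((z ^ i)⁻¹ * b⁻¹)⁻¹ := by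
        rw [hx]; group
      rw [h3] at hq2 hk ⊢
      exact hstar _ q hq2 k hk)]
    apply Finset.prod_congr rfl
    intro q _
    rw [ell_smul c hc]
  -- finite differences
  have hdM : ∀ k, (dl z)^[k] x ∈ M := by
    intro k
    induction k with
    | zero => exact hxM
    | succ k ih =>
      rw [Function.iterate_succ_apply']
      have h1 := hcz 1 _ ih
      rw [pow_one] at h1
      have h2 := M.mul_mem (M.inv_mem ih) h1
      rw [dl]
      convert h2 using 1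
      group
  have hdiff : ∀ k i, Multiplicative.toAdd (T ((z ^ i)⁻¹ * (dl z)^[k] x * z ^ i)) =
      (fwdDiff 1)^[k] (fun i => Multiplicative.toAdd (T ((z ^ i)⁻¹ * x * z ^ i))) i := by
    intro k
    induction k with
    | zero => intro i; rfl
    | succ k ih =>
      intro i
      rw [Function.iterate_succ_apply', Function.iterate_succ_apply', fwdDiff, ← ih, ← ih]
      have h1 : (z ^ i)⁻¹ * dl z ((dl z)^[k] x) * z ^ i =
          ((z ^ i)⁻¹ * (dl z)^[k] x * z ^ i)⁻¹ * ((z ^ (i + 1))⁻¹ * (dl z)^[k] x * z ^ (i + 1)) := by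
        rw [dl]
        have h5 : z ^ (i + 1) = z * z ^ i := pow_succ' z i
        rw [h5]
        group
      rw [h1, hTmul _ _ (hcz (i + 1) _ (hdM k)), hTinv _ (hcz i _ (hdM k)), toAdd_mul, toAdd_inv]
      rw [neg_add_eq_sub]
  have hTw : T ((dl z)^[p - 1] x) ≠ 1 := by
    intro h1
    apply hprod
    have h2 := hdiff (p - 1) 0
    rw [pow_zero, inv_one, one_mul, mul_one, h1, fwdDiff_sum] at h2
    have h3 : Multiplicative.toAdd (∏ i ∈ Finset.range p, T ((z ^ i)⁻¹ * x * z ^ i)) = 0 := by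
      rw [toAdd_prod]
      exact h2.symm
    exact h3
  have hwW : (dl z)^[p - 1] x ∈ W := by
    have h1 : p - 1 = (p - 2) + 1 := by have := hp.out.two_le; omega
    rw [h1, Function.iterate_succ_apply', dl]
    have h2 := hWn _ (Subgroup.inv_mem _ (hMP (hdM (p - 2)))) z⁻¹ (W.inv_mem hzW)
    rw [inv_inv] at h2
    exact W.mul_mem h2 hzW
  refine ⟨x, hxP, z, hzW, M.subgroupOf W, ?_, ?_, ?_⟩
  · -- coatom
    refine ⟨?_, ?_⟩
    · rw [Ne, Subgroup.subgroupOf_eq_top]; exact hWM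
    · intro H hH
      obtain ⟨h, hhH, hhM⟩ := SetLike.exists_of_lt hH
      have hhM' : (h : G) ∉ M := hhM
      rw [eq_top_iff]
      intro w _
      obtain ⟨k, m, hm, hwm⟩ := hjoin (h : G) h.2 hhM' (w : G) (hWle (h : G) h.2 hhM' w.2)
      have h1 : (h ^ k)⁻¹ * w ∈ M.subgroupOf W := by
        rw [Subgroup.mem_subgroupOf]
        push_cast
        rw [hwm, inv_mul_cancel_left]
        exact hm
      have h2 := H.mul_mem (H.zpow_mem hhH k) (hH.le h1)
      rwa [mul_inv_cancel_left] at h2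
  · exact ⟨⟨_, hwW⟩, hdM _, rfl⟩
  · intro h1
    obtain ⟨w₁, hw₁, h2⟩ := h1
    obtain ⟨w₂, hw₂, rfl⟩ := hw₁
    apply hTw
    let ν : (M.subgroupOf W) →* Multiplicative (ZMod p) := MonoidHom.mk' (fun y => T ((y : W) : G))
      (fun a b => hTmul _ _ b.2)
    have h3 := frattini_le_ker ν hw₂
    have h4 : T ((w₂ : W) : G) = 1 := MonoidHom.mem_ker.mp h3
    have h5 : ((w₂ : W) : G) = (dl z)^[p - 1] x := h2
    rwa [h5] at h4

/-- Yoshida / Hall--Wielandt, main theorem -/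
theorem main [Finite G] {p : ℕ} [hp : Fact p.Prime] (S : Sylow p G) (W : Subgroup G)
    (hW : Cfsg.IsWeaklyClosed W (S : Subgroup G))
    (h : (S : Subgroup G) ⊓ commutator G ≠ (S : Subgroup G) ⊓
      ⁅Subgroup.normalizer (W : Set G), Subgroup.normalizer (W : Set G)⁆) :
    ∃ x ∈ (S : Subgroup G), ∃ z ∈ W, ∃ W₀ : Subgroup W, IsCoatom W₀ ∧
      (dl z)^[p - 1] x ∈ W₀.map W.subtype ∧
      (dl z)^[p - 1] x ∉ ((frattini W₀).map W₀.subtype).map W.subtype := by
  obtain ⟨hWS, hWc⟩ := hW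
  have hWn : ∀ s ∈ (S : Subgroup G), W.map (MulAut.conj s).toMonoidHom = W := by
    intro s hs
    apply hWc
    rintro _ ⟨w, hw, rfl⟩
    exact Subgroup.mul_mem _ (Subgroup.mul_mem _ hs (hWS hw)) (Subgroup.inv_mem _ hs)
  have hWn' : ∀ s ∈ (S : Subgroup G), ∀ w ∈ W, s * w * s⁻¹ ∈ W := by
    intro s hs w hw
    have h1 := Subgroup.mem_map_of_mem (MulAut.conj s).toMonoidHom hw
    rw [hWn s hs] at h1
    exact h1
  have hmapN : ∀ g : G, W.map (MulAut.conj g).toMonoidHom = W → g ∈ Subgroup.normalizer (W : Set G) := by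
    intro g hg
    rw [Subgroup.mem_normalizer_iff]
    intro w
    constructor
    · intro hw
      have h1 := Subgroup.mem_map_of_mem (MulAut.conj g).toMonoidHom hw
      rw [hg] at h1
      exact h1
    · intro hw
      rw [← hg] at hw
      obtain ⟨w', hw', h1⟩ := hw
      have h2 : g * w' * g⁻¹ = g * w * g⁻¹ := h1
      have h3 : w' = w := by
        have h4 := mul_right_cancel h2
        exact mul_left_cancel h4
      rw [← h3]; exact hw'
  obtain ⟨N, hN⟩ : ∃ N : Subgroup G, N = Subgroup.normalizer (W : Set G) := ⟨_, rfl⟩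
  rw [← hN] at h
  have hSN : (S : Subgroup G) ≤ N := by
    intro s hs
    rw [hN]
    exact hmapN s (hWn s hs)
  have hWleN : W ≤ N := by rw [hN]; exact Subgroup.le_normalizer
  have hy : ∃ y ∈ (S : Subgroup G), y ∈ commutator G ∧ y ∉ ⁅N, N⁆ := by
    by_contra hcon
    push Not at hcon
    apply h
    apply le_antisymm
    · intro y hy
      exact ⟨hy.1, hcon y hy.1 hy.2⟩
    · refine inf_le_inf_left _ ?_
      rw [commutator_def]
      exact Subgroup.commutator_mono le_top le_top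
  obtain ⟨lam, hlam⟩ := exists_lam S N hSN hy
  obtain ⟨u, hu1, hu2, hu3, hmin⟩ := exists_min S N hSN lam hlam
  obtain ⟨hstar, q₁, hq₁, hq⟩ := exists_point S N hSN lam u hu1 hu2 hu3 hmin
  refine main_aux S (cc N lam) (cc_mul N lam) (u : G) hu1 hstar q₁ hq W hWS hWn' ?_
  intro hst
  apply hq₁
  obtain ⟨g, rfl⟩ := QuotientGroup.mk_surjective q₁
  -- g⁻¹ W g ≤ N
  have h1 : W.map (MulAut.conj g⁻¹).toMonoidHom ≤ N := by
    rintro _ ⟨w, hw, rfl⟩
    have h2 : w • ((g : G) : G ⧸ N) = ((g : G) : G ⧸ N) := hst hw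
    have h3 : ((w * g : G) : G ⧸ N) = ((g : G) : G ⧸ N) := h2
    have h4 := QuotientGroup.eq.mp h3
    change g⁻¹ * w * g⁻¹⁻¹ ∈ N
    have h5 := N.inv_mem h4
    have h6 : ((w * g)⁻¹ * g)⁻¹ = g⁻¹ * w * g⁻¹⁻¹ := by group
    rwa [h6] at h5
  have hWp : IsPGroup p W := S.isPGroup'.to_le hWS
  have hW1p : IsPGroup p (W.map (MulAut.conj g⁻¹).toMonoidHom) := hWp.map _
  have hW2p : IsPGroup p ((W.map (MulAut.conj g⁻¹).toMonoidHom).subgroupOf N) := by
    apply hW1p.of_equiv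
    exact (Subgroup.subgroupOfEquivOfLe h1).symm
  obtain ⟨Q, hQ⟩ := hW2p.exists_le_sylow
  obtain ⟨n, hn⟩ := MulAction.exists_smul_eq N Q (S.subtype hSN)
  have h7 : W.map (MulAut.conj ((n : G) * g⁻¹)).toMonoidHom ≤ (S : Subgroup G) := by
    rintro _ ⟨w, hw, rfl⟩
    have h8 : (⟨g⁻¹ * w * g⁻¹⁻¹, h1 ⟨w, hw, rfl⟩⟩ : N) ∈
        (W.map (MulAut.conj g⁻¹).toMonoidHom).subgroupOf N := ⟨w, hw, rfl⟩
    have h9 : n * (⟨g⁻¹ * w * g⁻¹⁻¹, h1 ⟨w, hw, rfl⟩⟩ : N) * n⁻¹ ∈ (S.subtype hSN : Subgroup N) := by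
      rw [← hn]
      exact ⟨_, hQ h8, rfl⟩
    have h10 : (n : G) * (g⁻¹ * w * g⁻¹⁻¹) * (n : G)⁻¹ ∈ (S : Subgroup G) := h9
    change ((n : G) * g⁻¹) * w * ((n : G) * g⁻¹)⁻¹ ∈ (S : Subgroup G)
    have h11 : ((n : G) * g⁻¹) * w * ((n : G) * g⁻¹)⁻¹ = (n : G) * (g⁻¹ * w * g⁻¹⁻¹) * (n : G)⁻¹ := by
      group
    rwa [h11]
  have h12 := hWc _ h7
  have h13 : (n : G) * g⁻¹ ∈ N := hN.symm.le (hmapN _ h12)
  have h14 : g ∈ N := by
    have h15 := N.mul_mem (N.inv_mem h13) n.2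
    have h16 : ((n : G) * g⁻¹)⁻¹ * n = g := by group
    rwa [h16] at h15
  rw [QuotientGroup.eq, mul_one]
  exact N.inv_mem h14

/-- control of transfer gives control of `O^p` -/
theorem pResidual_eq [Finite G] {p : ℕ} [hp : Fact p.Prime] (S : Sylow p G) (N : Subgroup G)
    (hSN : (S : Subgroup G) ≤ N) (hfoc : commutator G ⊓ (S : Subgroup G) ≤ ⁅N, N⁆) :
    (Cfsg.pResidual p N).map N.subtype = Cfsg.pResidual p G ⊓ N := by
  have h1 := inf_pResidual_eq S N hSN hfoc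
  have hle : (Cfsg.pResidual p N).map N.subtype ≤ Cfsg.pResidual p G ⊓ N := by
    apply le_inf
    · rw [Cfsg.pResidual, MonoidHom.map_closure, Subgroup.closure_le]
      rintro _ ⟨x, hx, rfl⟩
      apply mem_pResidual
      have h3 : Nat.Coprime (orderOf x) p := hx
      rw [Subgroup.coe_subtype, Subgroup.orderOf_coe]; exact h3
    · rintro _ ⟨x, -, rfl⟩
      exact x.2
  apply le_antisymm hle
  intro b hb
  have hsup := pResidual_sup (S.subtype hSN)
  have hn : (Cfsg.pResidual p N).Normal := pResidual_normal p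
  have hb2 : (⟨b, hb.2⟩ : N) ∈ Cfsg.pResidual p N ⊔ (S.subtype hSN : Subgroup N) := by
    rw [hsup]; trivial
  rw [Subgroup.mem_sup_of_normal_left] at hb2
  obtain ⟨a, ha, s, hs, hbs⟩ := hb2
  have hbs' : (a : G) * s = b := congrArg Subtype.val hbs
  have ha' : (a : G) ∈ (Cfsg.pResidual p N).map N.subtype := ⟨a, ha, rfl⟩
  have hs' : (s : G) ∈ (S : Subgroup G) := hs
  have hsG : (s : G) ∈ Cfsg.pResidual p G := by
    have h2 : (s : G) = (a : G)⁻¹ * b := by rw [← hbs']; group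
    rw [h2]
    exact Subgroup.mul_mem _ (Subgroup.inv_mem _ (hle ha').1) hb.1
  have h3 : (s : G) ∈ (S : Subgroup G) ⊓ Cfsg.pResidual p G := ⟨hs', hsG⟩
  rw [h1] at h3
  rw [← hbs']
  exact Subgroup.mul_mem _ ha' h3.2

/-- Hall--Wielandt -/
theorem hall_wielandt [Finite G] {p : ℕ} [hp : Fact p.Prime] (S : Sylow p G) (W : Subgroup G)
    (hW : Cfsg.IsWeaklyClosed W (S : Subgroup G))
    (h : ∀ u ∈ (S : Subgroup G), ∀ z ∈ W, (dl z)^[p - 1] u = 1) :
    (Cfsg.pResidual p (Subgroup.normalizer (W : Set G))).map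
      (Subgroup.normalizer (W : Set G)).subtype =
    Cfsg.pResidual p G ⊓ Subgroup.normalizer (W : Set G) := by
  have hSN : (S : Subgroup G) ≤ Subgroup.normalizer (W : Set G) := by
    intro s hs
    have h1 : W.map (MulAut.conj s).toMonoidHom = W := by
      apply hW.2
      rintro _ ⟨w, hw, rfl⟩
      exact Subgroup.mul_mem _ (Subgroup.mul_mem _ hs (hW.1 hw)) (Subgroup.inv_mem _ hs)
    rw [Subgroup.mem_normalizer_iff]
    intro w
    constructor
    · intro hw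
      have h2 := Subgroup.mem_map_of_mem (MulAut.conj s).toMonoidHom hw
      rw [h1] at h2
      exact h2
    · intro hw
      rw [← h1] at hw
      obtain ⟨w', hw', h2⟩ := hw
      have h3 : s * w' * s⁻¹ = s * w * s⁻¹ := h2
      have h4 : w' = w := mul_left_cancel (mul_right_cancel h3)
      rw [← h4]; exact hw'
  apply pResidual_eq S _ hSN
  by_contra hne
  have hne' : (S : Subgroup G) ⊓ commutator G ≠ (S : Subgroup G) ⊓
      ⁅Subgroup.normalizer (W : Set G), Subgroup.normalizer (W : Set G)⁆ := by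
    intro h1
    apply hne
    rw [inf_comm, h1]
    exact inf_le_right
  obtain ⟨x, hx, z, hz, W₀, -, -, h2⟩ := main S W hW hne'
  apply h2
  rw [h x hx z hz]
  exact Subgroup.one_mem _

end CfsgLib.WY
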