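import Mathlib
import Cfsg.Agent.LibTate2
import Cfsg.Agent.LibWY4
import Cfsg.Agent.LibComp3
import Cfsg.Agent.LibLE10
import Cfsg.Agent.LibGaschutz

/-! Two-generated Sylow subgroups with trivial cores: unique minimal normal subgroup -/

set_option autoImplicit false
set_option linter.all false

open scoped commutatorElement
open Pointwise

namespace CfsgLib.UMN

open Cfsg Subgroup CfsgLib.TransPC CfsgLib.TransFus CfsgLib.Tate CfsgLib.Comp CfsgLib.Comp2 CfsgLib.Comp3

universe u

section pgroup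

variable {P : Type u} [Group P] [Finite P]

theorem exists_gen {p : ℕ} [hp : Fact p.Prime] (hgen : (frattini P).index = p ^ 2)
    (D : Subgroup P) [hD : D.Normal] (h : ¬ D ≤ frattini P) :
    ∃ x : P, D ⊔ zpowers x = ⊤ := by
  have hlt : frattini P < D ⊔ frattini P := by
    refine lt_of_le_of_ne le_sup_right ?_
    intro h1
    exact h (le_sup_left.trans h1.symm.le)
  have hidx : (D ⊔ frattini P).index ∣ p ^ 2 := by
    rw [← hgen]; exact index_dvd_of_le hlt.le
  obtain ⟨k, hk, hki⟩ := (Nat.dvd_prime_pow hp.out).mp hidx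
  have hk2 : k ≠ 2 := by
    rintro rfl
    rw [← hgen] at hki
    have h1 := Subgroup.relIndex_mul_index hlt.le
    rw [hki] at h1
    have h2 : (frattini P).index ≠ 0 := Subgroup.FiniteIndex.index_ne_zero
    have h3 : (frattini P).relIndex (D ⊔ frattini P) = 1 := by
      have := Nat.eq_of_mul_eq_mul_right (Nat.pos_of_ne_zero h2) (h1.trans (one_mul _).symm)
      exact this
    rw [relIndex_eq_one] at h3
    exact absurd h3 (not_le_of_gt hlt)
  have key : ∃ x : P, (D ⊔ zpowers x) ⊔ frattini P = ⊤ := by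
    by_cases hk0 : k = 0
    · rw [hk0, pow_zero, Subgroup.index_eq_one] at hki
      exact ⟨1, by rw [zpowers_one_eq_bot, sup_bot_eq, hki]⟩
    · have hk1 : k = 1 := by omega
      rw [hk1, pow_one] at hki
      have hne : D ⊔ frattini P ≠ ⊤ := by
        intro h1
        rw [h1, index_top] at hki
        exact hp.out.one_lt.ne hki
      obtain ⟨x, -, hx⟩ := SetLike.exists_of_lt (lt_top_iff_ne_top.mpr hne)
      refine ⟨x, ?_⟩
      have hlt2 : D ⊔ frattini P < (D ⊔ zpowers x) ⊔ frattini P := by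
        refine lt_of_le_of_ne (sup_le_sup_right le_sup_left _) ?_
        intro h1
        apply hx
        rw [h1]
        exact (le_sup_right.trans le_sup_left : zpowers x ≤ (D ⊔ zpowers x) ⊔ frattini P)
          (mem_zpowers x)
      have h2 : ((D ⊔ zpowers x) ⊔ frattini P).index ∣ p := by
        rw [← hki]; exact index_dvd_of_le hlt2.le
      rcases (Nat.dvd_prime hp.out).mp h2 with h3 | h3
      · exact Subgroup.index_eq_one.mp h3
      · exfalso
        rw [← hki] at h3
        have h4 := Subgroup.relIndex_mul_index hlt2.le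
        rw [h3] at h4
        have h5 : (D ⊔ frattini P).index ≠ 0 := Subgroup.FiniteIndex.index_ne_zero
        have h6 : (D ⊔ frattini P).relIndex ((D ⊔ zpowers x) ⊔ frattini P) = 1 :=
          Nat.eq_of_mul_eq_mul_right (Nat.pos_of_ne_zero h5) (h4.trans (one_mul _).symm)
        rw [relIndex_eq_one] at h6
        exact absurd h6 (not_le_of_gt hlt2)
  obtain ⟨x, hx⟩ := key
  exact ⟨x, frattini_nongenerating hx⟩

theorem exists_decomp (D : Subgroup P) [hD : D.Normal] (x : P) (h : D ⊔ zpowers x = ⊤) (y : P) :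
    ∃ d ∈ D, ∃ k : ℤ, y = d * x ^ k := by
  have hy : y ∈ D ⊔ zpowers x := by rw [h]; trivial
  rw [mem_sup_of_normal_left] at hy
  obtain ⟨d, hd, _, ⟨k, rfl⟩, rfl⟩ := hy
  exact ⟨d, hd, k, rfl⟩

theorem commutator_le (D : Subgroup P) [hD : D.Normal] (x : P) (h : D ⊔ zpowers x = ⊤) :
    commutator P ≤ D := by
  rw [← Subgroup.Normal.quotient_commutative_iff_commutator_le]
  refine ⟨⟨fun a b => ?_⟩⟩
  obtain ⟨a, rfl⟩ := QuotientGroup.mk'_surjective D a
  obtain ⟨b, rfl⟩ := QuotientGroup.mk'_surjective D b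
  obtain ⟨d, hd, k, rfl⟩ := exists_decomp D x h a
  obtain ⟨e, he, l, rfl⟩ := exists_decomp D x h b
  have h1 : ∀ d ∈ D, QuotientGroup.mk' D d = 1 := fun d hd => (QuotientGroup.eq_one_iff d).mpr hd
  rw [map_mul, map_mul, h1 d hd, h1 e he, one_mul, one_mul, ← map_mul, ← map_mul, ← zpow_add,
    ← zpow_add, add_comm]

theorem absurd_of_two {p : ℕ} [hp : Fact p.Prime] (hgen : (frattini P).index = p ^ 2)
    (hna : ¬ IsMulCommutative P) (A B : Subgroup P) [A.Normal] [B.Normal]
    (hA : ¬ A ≤ frattini P) (hB : ¬ B ≤ frattini P) (hAB : A ⊓ B = ⊥) : False := by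
  obtain ⟨x, hx⟩ := exists_gen hgen A hA
  obtain ⟨y, hy⟩ := exists_gen hgen B hB
  have h1 := le_inf (commutator_le A x hx) (commutator_le B y hy)
  rw [hAB, le_bot_iff] at h1
  apply hna
  refine ⟨⟨fun a b => ?_⟩⟩
  have h2 : ⁅a, b⁆ ∈ commutator P := commutator_mem_commutator (mem_top a) (mem_top b)
  rw [h1, mem_bot] at h2
  exact commutatorElement_eq_one_iff_mul_comm.mp h2

end pgroup

variable {G : Type u} [Group G] [Finite G] {p : ℕ} [hp : Fact p.Prime]

theorem not_le_of_not_inf_le (P : Sylow p G) (A : Subgroup G)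
    (h : ¬ A ⊓ (P : Subgroup G) ≤ (frattini P).map (P : Subgroup G).subtype) :
    ¬ A.subgroupOf (P : Subgroup G) ≤ frattini P := by
  intro h1
  apply h
  rintro x ⟨hxA, hxP⟩
  exact ⟨⟨x, hxP⟩, h1 hxA, rfl⟩

theorem absurd_two (P : Sylow p G) (hna : ¬ IsMulCommutative (P : Subgroup G))
    (hgen : (frattini ↥(P : Subgroup G)).index = p ^ 2) (A B : Subgroup G)
    (hPA : (P : Subgroup G) ≤ normalizer (A : Set G)) (hPB : (P : Subgroup G) ≤ normalizer (B : Set G))
    (hA : ¬ A ⊓ (P : Subgroup G) ≤ (frattini P).map (P : Subgroup G).subtype)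
    (hB : ¬ B ⊓ (P : Subgroup G) ≤ (frattini P).map (P : Subgroup G).subtype)
    (hAB : A ⊓ B = ⊥) : False := by
  have h1 : ∀ (A : Subgroup G), (P : Subgroup G) ≤ normalizer (A : Set G) →
      (A.subgroupOf (P : Subgroup G)).Normal := by
    intro A hA
    constructor
    intro a ha g
    exact (mem_normalizer_iff.mp (hA g.2) (a : G)).mp ha
  haveI := h1 A hPA
  haveI := h1 B hPB
  refine absurd_of_two hgen hna (A.subgroupOf (P : Subgroup G)) (B.subgroupOf (P : Subgroup G))
    (not_le_of_not_inf_le P A hA) (not_le_of_not_inf_le P B hB) ?_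
  rw [eq_bot_iff]
  rintro x ⟨hxA, hxB⟩
  have h2 : (x : G) ∈ A ⊓ B := ⟨hxA, hxB⟩
  rw [hAB, mem_bot] at h2
  exact Subtype.ext h2

/-- Tate for normal subgroups -/
theorem claimA (P : Sylow p G) (hcore : pPrimeCore p G = ⊥)
    (hfrat : ((frattini ↥(P : Subgroup G)).map (P : Subgroup G).subtype).normalCore = ⊥)
    (K : Subgroup G) [hK : K.Normal] (hK1 : K ≠ ⊥) :
    ¬ K ⊓ (P : Subgroup G) ≤ (frattini P).map (P : Subgroup G).subtype := by
  intro h
  apply hK1
  obtain ⟨N₀, hN₀n, hN₀p, k, hk⟩ := (hasNPC_iff p).mp (tate P K h)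
  have h1 : pPrimeCore p K = ⊥ := by
    rw [← (map_injective K.subtype_injective).eq_iff, CfsgLib.Cores.map_pPrimeCore_of_normal, hcore,
      bot_inf_eq, Subgroup.map_bot]
  have h2 : N₀ ≤ pPrimeCore p K :=
    CfsgLib.Cores.le_pPrimeCore hN₀n ((Nat.Prime.coprime_iff_not_dvd hp.out).mpr hN₀p).symm
  rw [h1, le_bot_iff] at h2
  rw [h2, index_bot] at hk
  have h3 : IsPGroup p K := IsPGroup.of_card hk
  have h4 := CfsgLib.Cores.normal_le_sylow hK h3 P
  rw [inf_eq_left.mpr h4] at h
  have h5 := (normal_le_normalCore).mpr h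
  rw [hfrat, le_bot_iff] at h5
  exact h5

/-- Tate for products of components -/
theorem claimA' (P : Sylow p G) (hcore : pPrimeCore p G = ⊥)
    (A K : Subgroup G) (hPA : (P : Subgroup G) ≤ normalizer (A : Set G)) (hKc : IsComponent K)
    (hKA : K ≤ A) :
    ¬ A ⊓ (P : Subgroup G) ≤ (frattini P).map (P : Subgroup G).subtype := by
  intro h
  obtain ⟨H, hH⟩ : ∃ H, H = A ⊔ (P : Subgroup G) := ⟨_, rfl⟩
  have hAH : A ≤ H := by rw [hH]; exact le_sup_left
  have hPH : (P : Subgroup G) ≤ H := by rw [hH]; exact le_sup_right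
  have hAn : (A.subgroupOf H).Normal := by
    rw [normal_subgroupOf_iff_le_normalizer hAH, hH]
    exact sup_le le_normalizer hPA
  have h1 : (A.subgroupOf H) ⊓ ((P.subtype hPH : Sylow p H) : Subgroup H) ≤
      (frattini (P.subtype hPH : Sylow p H)).map ((P.subtype hPH : Sylow p H) : Subgroup H).subtype := by
    rintro x ⟨hxA, hxP⟩
    have hxP' : (x : G) ∈ (P : Subgroup G) := hxP
    have hxA' : (x : G) ∈ A := hxA
    obtain ⟨y, hy, hyx⟩ := h ⟨hxA', hxP'⟩
    let e : (P : Subgroup G) →* ((P.subtype hPH : Sylow p H) : Subgroup H) :=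
      { toFun := fun z => ⟨⟨z, hPH z.2⟩, z.2⟩
        map_one' := rfl
        map_mul' := fun _ _ => rfl }
    have he : Function.Surjective e := by
      rintro ⟨⟨z, hz1⟩, hz2⟩
      exact ⟨⟨z, hz2⟩, rfl⟩
    have h2 := frattini_le_comap_frattini_of_surjective he hy
    refine ⟨e y, h2, ?_⟩
    apply Subtype.ext
    exact hyx
  have h2 := (hasNPC_iff_pResidual p).mp (tate (P.subtype hPH) (A.subgroupOf H) h1)
  -- K is a p'-group
  obtain ⟨f, hf⟩ : ∃ f : K →* A.subgroupOf H, ∀ x, (((f x : A.subgroupOf H) : H) : G) = x :=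
    ⟨{ toFun := fun z => ⟨⟨z, hAH (hKA z.2)⟩, hKA z.2⟩
       map_one' := rfl
       map_mul' := fun _ _ => rfl }, fun _ => rfl⟩
  have hfi : Function.Injective f := by
    intro a b hab
    apply Subtype.ext
    rw [← hf a, ← hf b, hab]
  have hn : (Cfsg.pResidual p (A.subgroupOf H)).Normal := CfsgLib.TransFus.pResidual_normal p
  have hq : IsPGroup p ((A.subgroupOf H) ⧸ Cfsg.pResidual p (A.subgroupOf H)) :=
    CfsgLib.TransFus.isPGroup_quotient_pResidual (p := p) (Cfsg.pResidual p (A.subgroupOf H)) le_rfl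
  have hKp : ∀ x, f x ∈ Cfsg.pResidual p (A.subgroupOf H) := by
    haveI := hKc.2.1
    haveI : Group.IsNilpotent ((A.subgroupOf H) ⧸ Cfsg.pResidual p (A.subgroupOf H)) := hq.isNilpotent
    let g := (QuotientGroup.mk' (Cfsg.pResidual p (A.subgroupOf H))).comp f
    have hg : g.range = ⊥ := by
      by_contra hne
      haveI : Nontrivial g.range := (nontrivial_iff_ne_bot _).mpr hne
      haveI : Group.IsPerfect g.range := Group.IsPerfect.ofSurjective (f := g.rangeRestrict)
        g.rangeRestrict_surjective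
      have hs : Group.IsSolvable g.range := inferInstance
      exact Group.IsPerfect.not_isSolvable g.range hs
    intro x
    rw [← QuotientGroup.eq_one_iff]
    have h3 : g x ∈ g.range := ⟨x, rfl⟩
    rw [hg, mem_bot] at h3
    exact h3
  have hcard : ¬ p ∣ Nat.card K := by
    intro h3
    apply h2
    have h4 : Nat.card K = Nat.card f.range :=
      Nat.card_congr (MonoidHom.ofInjective hfi).toEquiv
    rw [h4] at h3
    refine h3.trans (card_dvd_of_le ?_)
    rintro _ ⟨x, rfl⟩
    exact hKp x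
  have h5 := le_pPrimeCore_of_subnormal hKc.1 ((Nat.Prime.coprime_iff_not_dvd hp.out).mpr hcard).symm
  rw [hcore, le_bot_iff] at h5
  exact component_ne_bot hKc h5

/-- a central `p`-subgroup of a perfect group with abelian Sylow `p`-subgroups is trivial -/
theorem central_trivial {X : Type u} [Group X] [Finite X] (hX : commutator X = ⊤) (Q : Sylow p X)
    (hQ : IsMulCommutative (Q : Subgroup X)) (z : X) (hz : z ∈ center X) (hzQ : z ∈ (Q : Subgroup X)) :
    z = 1 := by
  let _ : CommGroup (Q : Subgroup X) :=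
    { (inferInstance : Group (Q : Subgroup X)) with mul_comm := hQ.is_comm.comm }
  have key : ∀ (k : ℕ) (g₀ : X), g₀⁻¹ * z ^ k * g₀ ∈ (Q : Subgroup X) → g₀⁻¹ * z ^ k * g₀ = z ^ k := by
    intro k g₀ _
    have h1 := mem_center_iff.mp ((center X).pow_mem hz k) g₀
    rw [mul_assoc, ← h1, inv_mul_cancel_left]
  have h1 := MonoidHom.transfer_eq_pow (H := (Q : Subgroup X)) (MonoidHom.id (Q : Subgroup X)) z key
  have h2 : (MonoidHom.transfer (MonoidHom.id (Q : Subgroup X))) z = 1 := by
    have h3 : commutator X ≤ (MonoidHom.transfer (MonoidHom.id (Q : Subgroup X))).ker := by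
      rw [commutator_def, Subgroup.commutator_le]
      intro a _ b _
      rw [MonoidHom.mem_ker, map_commutatorElement, commutatorElement_eq_one_iff_mul_comm, mul_comm]
    rw [hX] at h3
    exact MonoidHom.mem_ker.mp (h3 (mem_top z))
  rw [h2] at h1
  have h3 : z ^ (Q : Subgroup X).index = 1 := (congrArg Subtype.val h1).symm
  obtain ⟨a, ha⟩ := IsPGroup.iff_orderOf.mp Q.isPGroup' ⟨z, hzQ⟩
  rw [← Subgroup.orderOf_coe] at ha
  have h4 : orderOf z ∣ (Q : Subgroup X).index := orderOf_dvd_of_pow_eq_one h3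
  have h5 : orderOf z = p ^ a := ha
  rcases Nat.eq_zero_or_pos a with rfl | ha0
  · rw [pow_zero, orderOf_eq_one_iff] at h5; exact h5
  · exfalso
    apply Q.not_dvd_index
    exact ((dvd_pow_self p ha0.ne').trans (by rw [← h5])).trans h4

variable (P : Sylow p G) (hna : ¬ IsMulCommutative (P : Subgroup G))
  (hgen : (frattini ↥(P : Subgroup G)).index = p ^ 2) (hcore : pPrimeCore p G = ⊥)
  (hfrat : ((frattini ↥(P : Subgroup G)).map (P : Subgroup G).subtype).normalCore = ⊥)
include hna hgen hcore hfrat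

theorem inf_ne_bot (A B : Subgroup G) [hA : A.Normal] [hB : B.Normal] (hA1 : A ≠ ⊥) (hB1 : B ≠ ⊥) :
    A ⊓ B ≠ ⊥ := by
  intro h
  exact absurd_two P hna hgen A B (by rw [normalizer_eq_top]; exact le_top)
    (by rw [normalizer_eq_top]; exact le_top)
    (claimA P hcore hfrat A hA1) (claimA P hcore hfrat B hB1) h

theorem exists_N : ∃ N : Subgroup G, N.Normal ∧ N ≠ ⊥ ∧ ∀ K : Subgroup G, K.Normal → K ≠ ⊥ → N ≤ K := by
  have htop : (⊤ : Subgroup G) ≠ ⊥ := by
    intro h
    apply hna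
    refine ⟨⟨fun a b => ?_⟩⟩
    apply Subtype.ext
    have ha : (a : G) ∈ (⊤ : Subgroup G) := mem_top _
    have hb : (b : G) ∈ (⊤ : Subgroup G) := mem_top _
    rw [h, mem_bot] at ha hb
    change (a : G) * b = b * a
    rw [ha, hb]
  obtain ⟨N, hNn, -, hN1, hNmin⟩ := CfsgLib.Cores.exists_minimal_normal (⊤ : Subgroup G) htop
  refine ⟨N, hNn, hN1, ?_⟩
  intro K hK hK1
  have h1 := inf_ne_bot P hna hgen hcore hfrat N K hN1 hK1
  rcases hNmin (N ⊓ K) inferInstance inf_le_left with h2 | h2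
  · exact absurd h2 h1
  · rw [← h2]; exact inf_le_right

theorem exists_x (N : Subgroup G) [hN : N.Normal] (hN1 : N ≠ ⊥) : ∃ x ∈ (P : Subgroup G),
    ∀ y ∈ (P : Subgroup G), ∃ d ∈ N ⊓ (P : Subgroup G), ∃ k : ℤ, y = d * x ^ k := by
  obtain ⟨x, hx⟩ := exists_gen hgen (N.subgroupOf (P : Subgroup G))
    (not_le_of_not_inf_le P N (claimA P hcore hfrat N hN1))
  refine ⟨x, x.2, ?_⟩
  intro y hy
  obtain ⟨d, hd, k, h⟩ := exists_decomp _ x hx ⟨y, hy⟩
  refine ⟨d, ⟨hd, d.2⟩, k, ?_⟩
  have := congrArg Subtype.val h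
  push_cast at this
  exact this

/-- the layer is trivial when `N` is abelian -/
theorem layer_trivial (N : Subgroup G) [hN : N.Normal] (hN1 : N ≠ ⊥)
    (hNmin : ∀ K : Subgroup G, K.Normal → K ≠ ⊥ → N ≤ K) (hNs : Group.IsSolvable N)
    (hNp : IsPGroup p N) : layer G = ⊥ := by
  by_contra hne
  have hNL : N ≤ layer G := hNmin _ inferInstance hne
  have hcent : ⁅layer G, N⁆ = ⊥ := by
    rw [layer]
    apply CfsgLib.Comp2.commutator_sSup_eq_bot
    intro K hK
    exact component_commute_solvable hK hNs (by rw [normalizer_eq_top]; exact le_top)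
  have hcomm : ∀ a ∈ layer G, ∀ b ∈ N, a * b = b * a := fun a ha b hb =>
    CfsgLib.Comp2.commute_of_commutator_eq_bot hcent ha hb
  obtain ⟨x, hxP, hx⟩ := exists_x P hna hgen hcore hfrat N hN1
  -- P ∩ layer is abelian
  have hab : ∀ a ∈ layer G ⊓ (P : Subgroup G), ∀ b ∈ layer G ⊓ (P : Subgroup G), a * b = b * a := by
    rintro a ⟨haL, haP⟩ b ⟨hbL, hbP⟩
    obtain ⟨d, hd, k, rfl⟩ := hx a haP
    obtain ⟨e, he, l, rfl⟩ := hx b hbP
    have h1 : x ^ k ∈ layer G := by
      have := (layer G).mul_mem ((layer G).inv_mem (hNL hd.1)) haL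
      rwa [inv_mul_cancel_left] at this
    have h2 : x ^ l ∈ layer G := by
      have := (layer G).mul_mem ((layer G).inv_mem (hNL he.1)) hbL
      rwa [inv_mul_cancel_left] at this
    have h3 := hcomm _ h1 _ he.1
    have h4 := hcomm _ h2 _ hd.1
    have h5 := hcomm _ (hNL hd.1) _ he.1
    have h6 : x ^ k * x ^ l = x ^ l * x ^ k := by rw [← zpow_add, ← zpow_add, add_comm]
    calc d * x ^ k * (e * x ^ l) = d * (x ^ k * e) * x ^ l := by group
      _ = (d * e) * (x ^ k * x ^ l) := by rw [h3]; group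
      _ = e * (d * x ^ l) * x ^ k := by rw [h5, h6]; group
      _ = e * x ^ l * (d * x ^ k) := by rw [← h4]; group
  -- Sylow subgroup of the layer
  obtain ⟨Q, hQ⟩ := (show IsPGroup p ((N.subgroupOf (layer G)) : Subgroup (layer G)) from
    hNp.of_equiv (subgroupOfEquivOfLe hNL).symm).exists_le_sylow
  have hQc : IsMulCommutative (Q : Subgroup (layer G)) := by
    have h1 : IsPGroup p ((Q : Subgroup (layer G)).map (layer G).subtype) := Q.isPGroup'.map _
    obtain ⟨P₂, hP₂⟩ := h1.exists_le_sylow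
    obtain ⟨g, hg⟩ := MulAction.exists_smul_eq G P₂ P
    have h2 : ∀ q ∈ (Q : Subgroup (layer G)), g * (q : G) * g⁻¹ ∈ layer G ⊓ (P : Subgroup G) := by
      intro q hq
      refine ⟨(inferInstance : (layer G).Normal).conj_mem _ q.2 g, ?_⟩
      rw [← hg]
      exact ⟨(q : G), hP₂ ⟨q, hq, rfl⟩, rfl⟩
    refine ⟨⟨fun a b => ?_⟩⟩
    apply Subtype.ext
    apply Subtype.ext
    have h3 := hab _ (h2 a a.2) _ (h2 b b.2)
    change ((a : layer G) : G) * ((b : layer G) : G) = ((b : layer G) : G) * ((a : layer G) : G)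
    have h4 : g * (((a : layer G) : G) * ((b : layer G) : G)) * g⁻¹ =
        g * (((b : layer G) : G) * ((a : layer G) : G)) * g⁻¹ := by
      calc g * (((a : layer G) : G) * ((b : layer G) : G)) * g⁻¹ =
          (g * ((a : layer G) : G) * g⁻¹) * (g * ((b : layer G) : G) * g⁻¹) := by group
        _ = (g * ((b : layer G) : G) * g⁻¹) * (g * ((a : layer G) : G) * g⁻¹) := h3
        _ = _ := by group
    exact mul_left_cancel (mul_right_cancel h4)
  have hperf : commutator (layer G) = ⊤ := by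
    have h1 := commutator_layer (G := G)
    have h2 := isPerfect_iff.mpr h1
    exact h2.commutator_eq_top
  apply hN1
  rw [eq_bot_iff]
  intro z hz
  have h1 := central_trivial hperf Q hQc ⟨z, hNL hz⟩ (by
    rw [mem_center_iff]
    intro g
    exact Subtype.ext (hcomm _ g.2 _ hz)) (hQ hz)
  exact congrArg Subtype.val h1

end CfsgLib.UMN
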