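import Mathlib
import Cfsg.Agent.LibUMN
import Cfsg.Agent.LibFus21Emb3

/-! Two-generated Sylow subgroups with trivial cores, part 2 -/

set_option autoImplicit false
set_option linter.all false

open scoped commutatorElement
open Pointwise

namespace CfsgLib.UMN

open Cfsg Subgroup CfsgLib.TransPC CfsgLib.TransFus CfsgLib.Tate CfsgLib.Comp CfsgLib.Comp2 CfsgLib.Comp3

universe u

variable {G : Type u} [Group G] [Finite G] {p : ℕ} [hp : Fact p.Prime]

theorem fitting_le_pCore (hcore : pPrimeCore p G = ⊥) : fittingSubgroup G ≤ pCore p G := by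
  rw [CfsgLib.Cores.fittingSubgroup_eq_iSup_pCore]
  refine iSup_le fun q => ?_
  by_cases h : (q : ℕ) = p
  · rw [h]
  · have hq : (q : ℕ).Prime := q.2
    haveI : Fact (q : ℕ).Prime := ⟨hq⟩
    have h1 : pCore (q : ℕ) G ≤ pPrimeCore p G := by
      apply CfsgLib.Cores.le_pPrimeCore inferInstance
      obtain ⟨k, hk⟩ := IsPGroup.iff_card.mp (CfsgLib.Cores.pCore_isPGroup (G := G) (q : ℕ))
      rw [hk]
      exact Nat.Coprime.pow_left k ((Nat.coprime_primes hq hp.out).mpr h)
    rw [hcore, le_bot_iff] at h1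
    rw [h1]; exact bot_le

variable (P : Sylow p G) (hna : ¬ IsMulCommutative (P : Subgroup G))
  (hgen : (frattini ↥(P : Subgroup G)).index = p ^ 2) (hcore : pPrimeCore p G = ⊥)
  (hfrat : ((frattini ↥(P : Subgroup G)).map (P : Subgroup G).subtype).normalCore = ⊥)
include hna hgen hcore hfrat

theorem pCore_le (N : Subgroup G) [hN : N.Normal] (hN1 : N ≠ ⊥)
    (hNmin : ∀ K : Subgroup G, K.Normal → K ≠ ⊥ → N ≤ K)
    (hNp : IsPGroup p N) : pCore p G ≤ N := by
  obtain ⟨R, hR⟩ : ∃ R, R = pCore p G := ⟨_, rfl⟩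
  rw [← hR]
  have hRn : R.Normal := by rw [hR]; infer_instance
  have hRP : R ≤ (P : Subgroup G) := by rw [hR]; exact CfsgLib.Cores.pCore_le_sylow P
  have hNR : N ≤ R := by rw [hR]; exact CfsgLib.Cores.le_pCore hN hNp
  have hkill : ∀ K : Subgroup G, K.Normal → K ≤ (frattini P).map (P : Subgroup G).subtype → K = ⊥ := by
    intro K hK h
    have h5 := (normal_le_normalCore).mpr h
    rwa [hfrat, le_bot_iff] at h5
  have hRc : ⁅R, R⁆ = ⊥ := by
    apply hkill _ inferInstance
    have h1 : ⁅R, R⁆ ≤ ⁅(P : Subgroup G), (P : Subgroup G)⁆ := commutator_mono hRP hRP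
    refine h1.trans ?_
    have h2 := CfsgLib.LE.commutator_le_frattini (p := p) P.isPGroup'
    have h3 := map_mono (f := (P : Subgroup G).subtype) h2
    rw [commutator_def, map_commutator, ← MonoidHom.range_eq_map, range_subtype] at h3
    exact h3
  have hRcomm : ∀ a ∈ R, ∀ b ∈ R, a * b = b * a := fun a ha b hb =>
    commute_of_commutator_eq_bot hRc ha hb
  have hRexp : ∀ a ∈ R, a ^ p = 1 := by
    let U : Subgroup G :=
      { carrier := {y | ∃ r ∈ R, y = r ^ p}
        one_mem' := ⟨1, R.one_mem, (one_pow p).symm⟩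
        mul_mem' := by
          rintro _ _ ⟨a, ha, rfl⟩ ⟨b, hb, rfl⟩
          exact ⟨a * b, R.mul_mem ha hb, ((show Commute a b from hRcomm a ha b hb).mul_pow p).symm⟩
        inv_mem' := by
          rintro _ ⟨a, ha, rfl⟩
          exact ⟨a⁻¹, R.inv_mem ha, (inv_pow a p).symm⟩ }
    have hU : U = ⊥ := by
      apply hkill
      · constructor
        rintro _ ⟨a, ha, rfl⟩ g
        exact ⟨g * a * g⁻¹, hRn.conj_mem a ha g, (conj_pow).symm⟩
      · rintro _ ⟨a, ha, rfl⟩
        have h2 := CfsgLib.LE.pow_mem_frattini (p := p) P.isPGroup' ⟨a, hRP ha⟩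
        exact ⟨_, h2, rfl⟩
    intro a ha
    have h1 : a ^ p ∈ U := ⟨a, ha, rfl⟩
    rwa [hU, mem_bot] at h1
  by_contra hne
  obtain ⟨r, hrR, hrN⟩ := SetLike.not_le_iff_exists.mp hne
  obtain ⟨x, hxP, hx⟩ := exists_x P hna hgen hcore hfrat N hN1
  obtain ⟨n, hn, k, hrk⟩ := hx r (hRP hrR)
  have hcR : x ^ k ∈ R := by
    have := R.mul_mem (R.inv_mem (hNR hn.1)) hrR
    rwa [hrk, inv_mul_cancel_left] at this
  have hcN : x ^ k ∉ N := by
    intro h
    apply hrN
    rw [hrk]; exact N.mul_mem hn.1 h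
  -- N meets ⟨x⟩ trivially
  have hint : zpowers x ⊓ N = ⊥ := by
    rw [eq_bot_iff]
    rintro _ ⟨⟨a, rfl⟩, haN⟩
    obtain ⟨m, hm⟩ := IsPGroup.iff_orderOf.mp P.isPGroup' ⟨x, hxP⟩
    rw [← Subgroup.orderOf_coe] at hm
    change orderOf x = p ^ m at hm
    have hm0 : m ≠ 0 := by
      rintro rfl
      rw [pow_zero, orderOf_eq_one_iff] at hm
      apply hcN
      rw [hm, one_zpow]; exact N.one_mem
    have hdiv : ∀ j : ℤ, x ^ j ∈ R → (p : ℤ) ^ (m - 1) ∣ j := by
      intro j hj
      have h1 := hRexp _ hj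
      rw [← zpow_natCast, ← zpow_mul, ← orderOf_dvd_iff_zpow_eq_one, hm] at h1
      have h2 : ((p ^ m : ℕ) : ℤ) = (p : ℤ) ^ (m - 1) * p := by
        push_cast
        rw [← pow_succ, Nat.sub_add_cancel (Nat.pos_of_ne_zero hm0)]
      rw [h2] at h1
      exact Int.dvd_of_mul_dvd_mul_right (by exact_mod_cast hp.out.ne_zero) h1
    change x ^ a ∈ N at haN
    change x ^ a = 1
    obtain ⟨a', ha'⟩ := hdiv a (hNR haN)
    obtain ⟨k', hk'⟩ := hdiv k hcR
    obtain ⟨z, hz⟩ : ∃ z, z = x ^ ((p : ℤ) ^ (m - 1)) := ⟨_, rfl⟩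
    have hza : x ^ a = z ^ a' := by rw [hz, ← zpow_mul, ← ha']
    have hzk : x ^ k = z ^ k' := by rw [hz, ← zpow_mul, ← hk']
    have hzp : z ^ p = 1 := by
      rw [hz, ← zpow_natCast, ← zpow_mul]
      have h2 : (p : ℤ) ^ (m - 1) * p = ((p ^ m : ℕ) : ℤ) := by
        push_cast
        rw [← pow_succ, Nat.sub_add_cancel (Nat.pos_of_ne_zero hm0)]
      rw [h2, zpow_natCast, ← hm, pow_orderOf_eq_one]
    by_cases hpa : (p : ℤ) ∣ a'
    · obtain ⟨t, ht⟩ := hpa
      rw [hza, ht, zpow_mul, zpow_natCast, hzp, one_zpow]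
    · exfalso
      apply hcN
      rw [hzk]
      apply N.zpow_mem
      rcases (Nat.dvd_prime hp.out).mp (orderOf_dvd_of_pow_eq_one hzp) with h | h
      · rw [orderOf_eq_one_iff] at h
        rw [h]; exact N.one_mem
      · exact CfsgLib.WY.mem_of_zpow_mem N z 1 (by rw [h, pow_one]) a' hpa (by rw [← hza]; exact haN)
  have hNP : N ≤ (P : Subgroup G) := hNR.trans hRP
  have hsup : N ⊔ zpowers x = (P : Subgroup G) := by
    apply le_antisymm (sup_le hNP (zpowers_le.mpr hxP))
    intro y hy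
    obtain ⟨d, hd, k, rfl⟩ := hx y hy
    exact mul_mem_sup hd.1 (Subgroup.zpow_mem _ (mem_zpowers x) k)
  haveI hNc : IsMulCommutative N :=
    ⟨⟨fun a b => Subtype.ext (hRcomm a (hNR a.2) b (hNR b.2))⟩⟩
  have hcop : (Nat.card N).Coprime (P : Subgroup G).index := by
    obtain ⟨j, hj⟩ := IsPGroup.iff_card.mp hNp
    rw [hj]
    exact Nat.Coprime.pow_left j ((Nat.Prime.coprime_iff_not_dvd hp.out).mpr P.not_dvd_index)
  obtain ⟨H, hH⟩ := CfsgLib.Gaschutz.exists_complement N (P : Subgroup G) hNP hcop (zpowers x)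
    (zpowers_le.mpr hxP) hint hsup
  -- M = R ∩ H is normal
  have hdec : ∀ g : G, ∃ n ∈ N, ∃ h ∈ H, g = n * h := by
    intro g
    have h1 : g ∈ N ⊔ H := by rw [hH.sup_eq_top]; trivial
    rw [mem_sup_of_normal_left] at h1
    obtain ⟨n, hn, h, hh, rfl⟩ := h1
    exact ⟨n, hn, h, hh, rfl⟩
  have hMn : (R ⊓ H).Normal := by
    constructor
    rintro m ⟨hmR, hmH⟩ g
    obtain ⟨n, hn, h, hh, rfl⟩ := hdec g
    have h1 : h * m * h⁻¹ ∈ R ⊓ H := ⟨hRn.conj_mem m hmR h, H.mul_mem (H.mul_mem hh hmH) (H.inv_mem hh)⟩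
    have h2 : n * h * m * (n * h)⁻¹ = h * m * h⁻¹ := by
      have h3 := hRcomm n (hNR hn) _ h1.1
      calc n * h * m * (n * h)⁻¹ = (n * (h * m * h⁻¹)) * n⁻¹ := by group
        _ = _ := by rw [h3, mul_inv_cancel_right]
    rw [h2]; exact h1
  have hM1 : R ⊓ H ≠ ⊥ := by
    intro h1
    obtain ⟨n', hn', h', hh', hrn⟩ := hdec r
    have h2 : h' ∈ R ⊓ H := by
      refine ⟨?_, hh'⟩
      have := R.mul_mem (R.inv_mem (hNR hn')) hrR
      rwa [hrn, inv_mul_cancel_left] at this
    rw [h1, mem_bot] at h2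
    apply hrN
    rw [hrn, h2, mul_one]; exact hn'
  have h1 := hNmin _ hMn hM1
  apply hN1
  rw [eq_bot_iff]
  intro y hy
  have h2 : y ∈ N ⊓ H := ⟨hy, (h1 hy).2⟩
  rwa [hH.disjoint.eq_bot] at h2

theorem gfitting_le (N : Subgroup G) [hN : N.Normal] (hN1 : N ≠ ⊥)
    (hNmin : ∀ K : Subgroup G, K.Normal → K ≠ ⊥ → N ≤ K) : generalizedFittingSubgroup G ≤ N := by
  have hmin' : ∀ K : Subgroup G, K.Normal → K ≤ N → K = ⊥ ∨ K = N := by
    intro K hK hKN
    by_cases h : K = ⊥
    · exact Or.inl h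
    · exact Or.inr (le_antisymm hKN (hNmin K hK h))
  by_cases hs : Group.IsSolvable N
  · obtain ⟨q, hq, hNc, -, hNq⟩ := CfsgLib.Cores.minimal_normal_elementary N hN1 hmin' hs
    have hNp : IsPGroup p N := by
      by_cases h : q = p
      · rw [← h]; exact hNq
      · exfalso
        haveI : Fact q.Prime := ⟨hq⟩
        have h1 : N ≤ pPrimeCore p G := by
          apply CfsgLib.Cores.le_pPrimeCore hN
          obtain ⟨k, hk⟩ := IsPGroup.iff_card.mp hNq
          rw [hk]
          exact Nat.Coprime.pow_left k ((Nat.coprime_primes hq hp.out).mpr h)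
        rw [hcore, le_bot_iff] at h1
        exact hN1 h1
    refine sup_le ?_ ?_
    · rw [layer_trivial P hna hgen hcore hfrat N hN1 hNmin hs hNp]
      exact bot_le
    · exact (fitting_le_pCore hcore).trans (pCore_le P hna hgen hcore hfrat N hN1 hNmin hNp)
  · apply gfitting_le_of_centralizer N
    · -- Fitting subgroup trivial
      have h1 : fittingSubgroup G = ⊥ := by
        by_contra h
        apply hs
        have h2 := hNmin _ inferInstance h
        haveI := CfsgLib.Cores.fittingSubgroup_isNilpotent (G := G)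
        haveI : Group.IsSolvable (fittingSubgroup G) := inferInstance
        exact Group.isSolvable_of_isSolvable_injective (Subgroup.inclusion_injective h2)
      rw [h1]; exact bot_le
    · have h1 : centralizer (N : Set G) = ⊥ := by
        by_contra h
        apply hs
        have h2 := hNmin _ inferInstance h
        exact Group.isSolvable_of_comm
          (fun a b => Subtype.ext (mem_centralizer_iff.mp (h2 b.2) a a.2))
      rw [h1]; exact bot_le

/-- main statement -/
theorem main : (generalizedFittingSubgroup G ≠ ⊥ ∧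
      ∀ K : Subgroup G, K.Normal → K ≠ ⊥ → generalizedFittingSubgroup G ≤ K) ∧
    IsCyclic ↥((P : Subgroup G).map (QuotientGroup.mk' (generalizedFittingSubgroup G))) ∧
    (¬ IsMulCommutative (generalizedFittingSubgroup G) → ∀ K L : Subgroup G, IsComponent K →
      IsComponent L → ∃ x ∈ (P : Subgroup G), L = K.map (MulAut.conj x).toMonoidHom) := by
  obtain ⟨N, hN, hN1, hNmin⟩ := exists_N P hna hgen hcore hfrat
  have hle := gfitting_le P hna hgen hcore hfrat N hN1 hNmin
  have hF1 : generalizedFittingSubgroup G ≠ ⊥ := by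
    intro h
    have h1 := centralizer_gfitting_le (G := G)
    rw [h] at h1
    have h2 : (⊤ : Subgroup G) ≤ ⊥ := by
      refine le_trans ?_ h1
      intro g _
      rw [mem_centralizer_iff]
      intro y hy
      have : y = 1 := hy
      rw [this, mul_one, one_mul]
    apply hN1
    rw [eq_bot_iff]
    exact le_top.trans h2
  have hEq : generalizedFittingSubgroup G = N := le_antisymm hle (hNmin _ inferInstance hF1)
  refine ⟨⟨hF1, fun K hK hK1 => hle.trans (hNmin K hK hK1)⟩, ?_, ?_⟩
  · obtain ⟨x, hxP, hx⟩ := exists_x P hna hgen hcore hfrat _ hF1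
    refine ⟨⟨⟨QuotientGroup.mk' _ x, ⟨x, hxP, rfl⟩⟩, ?_⟩⟩
    rintro ⟨_, y, hy, rfl⟩
    obtain ⟨d, hd, k, rfl⟩ := hx y hy
    refine ⟨k, ?_⟩
    apply Subtype.ext
    change (QuotientGroup.mk' (generalizedFittingSubgroup G) x) ^ k =
      QuotientGroup.mk' (generalizedFittingSubgroup G) (d * x ^ k)
    rw [map_mul, map_zpow]
    have h1 : QuotientGroup.mk' (generalizedFittingSubgroup G) d = 1 :=
      (QuotientGroup.eq_one_iff d).mpr hd.1
    rw [h1, one_mul]
  · intro hnc K L hK hL
    have hfit : fittingSubgroup G = ⊥ := by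
      by_contra h
      apply hnc
      have h2 : generalizedFittingSubgroup G ≤ fittingSubgroup G := hle.trans (hNmin _ inferInstance h)
      -- the center of the Fitting subgroup is a nontrivial normal subgroup
      haveI := CfsgLib.Cores.fittingSubgroup_isNilpotent (G := G)
      haveI : Nontrivial (fittingSubgroup G) := (nontrivial_iff_ne_bot _).mpr h
      have h3 : (center (fittingSubgroup G)).map (fittingSubgroup G).subtype ≠ ⊥ := by
        intro h4
        have h5 : center (fittingSubgroup G) = ⊥ := by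
          rw [← (map_injective (fittingSubgroup G).subtype_injective).eq_iff, h4, Subgroup.map_bot]
        exact Group.IsNilpotent.center_ne_bot _ h5
      have h4 := hle.trans (hNmin _ inferInstance h3)
      refine ⟨⟨fun a b => ?_⟩⟩
      apply Subtype.ext
      obtain ⟨a', ha', h5⟩ := h4 a.2
      obtain ⟨b', hb', h6⟩ := h4 b.2
      change (a : G) * b = b * a
      rw [← h5, ← h6]
      have h7 := mem_center_iff.mp ha' b'
      have h8 := congrArg Subtype.val h7
      exact h8.symm
    by_contra hcon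
    push Not at hcon
    let SA : Set (Subgroup G) := {M | ∃ x ∈ (P : Subgroup G), M = K.map (MulAut.conj x).toMonoidHom}
    let SB : Set (Subgroup G) := {M | ∃ x ∈ (P : Subgroup G), M = L.map (MulAut.conj x).toMonoidHom}
    have hcompA : ∀ M ∈ SA, IsComponent M := by
      rintro _ ⟨x, _, rfl⟩; exact isComponent_map_equiv _ hK
    have hcompB : ∀ M ∈ SB, IsComponent M := by
      rintro _ ⟨x, _, rfl⟩; exact isComponent_map_equiv _ hL
    have hnorm : ∀ K : Subgroup G, (P : Subgroup G) ≤ normalizer ((sSup {M | ∃ x ∈ (P : Subgroup G),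
        M = K.map (MulAut.conj x).toMonoidHom} : Subgroup G) : Set G) := by
      intro K g hg
      apply CfsgLib.Fus21.mem_normalizer_of_maps
      intro a ha
      have h1 : sSup {M | ∃ x ∈ (P : Subgroup G), M = K.map (MulAut.conj x).toMonoidHom} ≤
          (sSup {M | ∃ x ∈ (P : Subgroup G), M = K.map (MulAut.conj x).toMonoidHom}).comap
            (MulAut.conj g).toMonoidHom := by
        apply sSup_le
        rintro _ ⟨x, hx, rfl⟩
        rintro _ ⟨y, hy, rfl⟩
        have h2 : K.map (MulAut.conj (g * x)).toMonoidHom ≤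
            sSup {M | ∃ x ∈ (P : Subgroup G), M = K.map (MulAut.conj x).toMonoidHom} :=
          le_sSup ⟨g * x, (P : Subgroup G).mul_mem hg hx, rfl⟩
        apply h2
        refine ⟨y, hy, ?_⟩
        change g * x * y * (g * x)⁻¹ = g * (x * y * x⁻¹) * g⁻¹
        group
      exact h1 ha
    have hKA : K ≤ sSup SA := le_sSup ⟨1, (P : Subgroup G).one_mem, by
      ext y; simp⟩
    have hLB : L ≤ sSup SB := le_sSup ⟨1, (P : Subgroup G).one_mem, by
      ext y; simp⟩
    have hcomm : ∀ A ∈ SA, ∀ B ∈ SB, ⁅A, B⁆ = ⊥ := by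
      intro A hA B hB
      apply components_commute (hcompA A hA) (hcompB B hB)
      rintro rfl
      obtain ⟨x, hx, h1⟩ := hA
      obtain ⟨y, hy, h2⟩ := hB
      apply hcon (y⁻¹ * x) ((P : Subgroup G).mul_mem ((P : Subgroup G).inv_mem hy) hx)
      ext z
      constructor
      · intro hz
        have h3 : y * z * y⁻¹ ∈ L.map (MulAut.conj y).toMonoidHom := ⟨z, hz, rfl⟩
        rw [← h2, h1] at h3
        obtain ⟨w, hw, h4⟩ := h3
        refine ⟨w, hw, ?_⟩
        have h5 : x * w * x⁻¹ = y * z * y⁻¹ := h4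
        change y⁻¹ * x * w * (y⁻¹ * x)⁻¹ = z
        calc y⁻¹ * x * w * (y⁻¹ * x)⁻¹ = y⁻¹ * (x * w * x⁻¹) * y := by group
          _ = z := by rw [h5]; group
      · rintro ⟨w, hw, rfl⟩
        have h3 : x * w * x⁻¹ ∈ K.map (MulAut.conj x).toMonoidHom := ⟨w, hw, rfl⟩
        rw [← h1, h2] at h3
        obtain ⟨z, hz, h4⟩ := h3
        have h5 : y * z * y⁻¹ = x * w * x⁻¹ := h4
        have h6 : y⁻¹ * x * w * (y⁻¹ * x)⁻¹ = z := by
          calc y⁻¹ * x * w * (y⁻¹ * x)⁻¹ = y⁻¹ * (x * w * x⁻¹) * y := by group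
            _ = z := by rw [← h5]; group
        change y⁻¹ * x * w * (y⁻¹ * x)⁻¹ ∈ L
        rw [h6]; exact hz
    have hAB : ⁅(sSup SA : Subgroup G), (sSup SB : Subgroup G)⁆ = ⊥ := by
      apply commutator_sSup_eq_bot
      intro A hA
      rw [commutator_comm]
      apply commutator_sSup_eq_bot
      intro B hB
      rw [commutator_comm]
      exact hcomm A hA B hB
    have hlayerA : layer G ≤ normalizer ((sSup SA : Subgroup G) : Set G) :=
      le_normalizer_sSup fun M hM => layer_le_normalizer_component (hcompA M hM)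
    have hlayerB : layer G ≤ normalizer ((sSup SB : Subgroup G) : Set G) :=
      le_normalizer_sSup fun M hM => layer_le_normalizer_component (hcompB M hM)
    have hAl : sSup SA ≤ layer G := sSup_le fun M hM => component_le_layer (hcompA M hM)
    have hinf : sSup SA ⊓ sSup SB = ⊥ := by
      rw [eq_bot_iff, ← hfit]
      have hle2 : sSup SA ⊓ sSup SB ≤ layer G := inf_le_left.trans hAl
      apply le_fitting_of_subnormal_nilpotent
      · apply isSubnormal_of_subgroupOf hle2 layer_subnormal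
        apply Subgroup.Normal.isSubnormal
        rw [normal_subgroupOf_iff_le_normalizer hle2]
        intro g hg
        apply CfsgLib.Fus21.mem_normalizer_of_maps
        rintro a ⟨ha, hb⟩
        exact ⟨(mem_normalizer_iff.mp (hlayerA hg) a).mp ha, (mem_normalizer_iff.mp (hlayerB hg) a).mp hb⟩
      · apply nilpotent_of_comm
        intro a b
        apply Subtype.ext
        exact commute_of_commutator_eq_bot hAB a.2.1 b.2.2
    exact absurd_two P hna hgen (sSup SA) (sSup SB) (hnorm K) (hnorm L)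
      (claimA' P hcore _ K (hnorm K) hK hKA) (claimA' P hcore _ L (hnorm L) hL hLB) hinf

end CfsgLib.UMN
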