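import Mathlib
import Cfsg.Agent.LibUMN2
import Cfsg.Agent.LibH14MinNorm
import Cfsg.Agent.LibH7Sec
import Cfsg.Agent.LibLE9

/-!
# Sylow subgroups with abelianization of order `p ^ 2`, I: `p`-groups (helper17)
-/

set_option autoImplicit false
set_option linter.all false

namespace CfsgLib.Abq

open Subgroup
open scoped commutatorElement

universe u

section grp

variable {P : Type u} [Group P]

/-- a normal subgroup modulo which `P = D⟨y⟩` is commutative -/
theorem comm_le_of_gen (D K : Subgroup P) [hK : K.Normal] (y : P)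
    (hgen : ∀ g : P, ∃ d ∈ D, ∃ k : ℤ, g = d * y ^ k)
    (hcomm : ∀ d ∈ D, ∀ g : P, d * g * d⁻¹ * g⁻¹ ∈ K) : commutator P ≤ K := by
  rw [← Subgroup.Normal.quotient_commutative_iff_commutator_le]
  refine ⟨⟨fun a b => ?_⟩⟩
  obtain ⟨a, rfl⟩ := QuotientGroup.mk'_surjective K a
  obtain ⟨b, rfl⟩ := QuotientGroup.mk'_surjective K b
  have hc : ∀ d ∈ D, ∀ g : P, QuotientGroup.mk' K d * QuotientGroup.mk' K g =
      QuotientGroup.mk' K g * QuotientGroup.mk' K d := by
    intro d hd g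
    have h1 : QuotientGroup.mk' K (d * g * d⁻¹ * g⁻¹) = 1 := (QuotientGroup.eq_one_iff _).2 (hcomm d hd g)
    simp only [map_mul, map_inv] at h1
    rw [mul_inv_eq_one, mul_inv_eq_iff_eq_mul] at h1
    exact h1
  obtain ⟨d, hd, k, rfl⟩ := hgen a
  obtain ⟨e, he, l, rfl⟩ := hgen b
  rw [map_mul, map_mul]
  have h1 := hc d hd
  have h2 := hc e he
  have h3 : QuotientGroup.mk' K (y ^ k) * QuotientGroup.mk' K (y ^ l) =
      QuotientGroup.mk' K (y ^ l) * QuotientGroup.mk' K (y ^ k) := by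
    rw [← map_mul, ← map_mul, ← zpow_add, ← zpow_add, add_comm]
  calc QuotientGroup.mk' K d * QuotientGroup.mk' K (y ^ k) * (QuotientGroup.mk' K e * QuotientGroup.mk' K (y ^ l))
      = QuotientGroup.mk' K d * (QuotientGroup.mk' K (y ^ k) * QuotientGroup.mk' K e) * QuotientGroup.mk' K (y ^ l) := by
        group
    _ = (QuotientGroup.mk' K d * QuotientGroup.mk' K e) * (QuotientGroup.mk' K (y ^ k) * QuotientGroup.mk' K (y ^ l)) := by
        rw [← h2 (y ^ k)]; group
    _ = QuotientGroup.mk' K e * (QuotientGroup.mk' K d * QuotientGroup.mk' K (y ^ l)) * QuotientGroup.mk' K (y ^ k) := by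
        rw [h1 e, h3]; group
    _ = QuotientGroup.mk' K e * QuotientGroup.mk' K (y ^ l) * (QuotientGroup.mk' K d * QuotientGroup.mk' K (y ^ k)) := by
        rw [h1 (y ^ l)]; group

variable [Finite P]

theorem index_le (y : P) : (commutator P).index ≤ Nat.card (centralizer ({y} : Set P)) := by
  have h1 : (centralizer ({y} : Set P)).index ≤ Nat.card (commutator P) := by
    apply Nat.card_le_card_of_injective (fun c : P ⧸ centralizer ({y} : Set P) =>
      (⟨⁅c.out, y⁆, commutator_mem_commutator (mem_top _) (mem_top _)⟩ : commutator P))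
    intro a b hab
    have h2 : ⁅a.out, y⁆ = ⁅b.out, y⁆ := congrArg (fun z : commutator P => (z : P)) hab
    rw [commutatorElement_def, commutatorElement_def, mul_left_inj] at h2
    rw [← a.out_eq, ← b.out_eq]
    apply QuotientGroup.eq.2
    rw [mem_centralizer_singleton_iff]
    calc (a.out)⁻¹ * b.out * y = (a.out)⁻¹ * (b.out * y * (b.out)⁻¹) * b.out := by group
      _ = y * ((a.out)⁻¹ * b.out) := by rw [← h2]; group
  have h2 := Subgroup.card_mul_index (centralizer ({y} : Set P))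
  have h3 := Subgroup.card_mul_index (commutator P)
  have h4 : 0 < Nat.card (commutator P) := Nat.card_pos
  have h5 : Nat.card (commutator P) * (commutator P).index ≤
      Nat.card (commutator P) * Nat.card (centralizer ({y} : Set P)) := by
    rw [h3, ← h2, mul_comm]
    exact Nat.mul_le_mul h1 le_rfl
  exact Nat.le_of_mul_le_mul_left h5 h4

/-- if `D` is an abelian normal subgroup and `P = D⟨y⟩` then `|C_P(y)| = |P : P'|` -/
theorem card_cent (D : Subgroup P) [hD : D.Normal] (hab : ∀ a ∈ D, ∀ b ∈ D, a * b = b * a) (y : P)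
    (hgen : ∀ g : P, ∃ d ∈ D, ∃ k : ℤ, g = d * y ^ k) :
    Nat.card (centralizer ({y} : Set P)) = (commutator P).index := by
  refine le_antisymm ?_ (index_le y)
  have hcm : ∀ d ∈ D, d * (y * d⁻¹ * y⁻¹) ∈ D := fun d hd => D.mul_mem hd (hD.conj_mem _ (D.inv_mem hd) y)
  let φ : D →* D := MonoidHom.mk' (fun d => ⟨d * (y * (d : P)⁻¹ * y⁻¹), hcm d d.2⟩) (by
    intro a b
    apply Subtype.ext
    change ((a : P) * b) * (y * ((a : P) * b)⁻¹ * y⁻¹) = ((a : P) * (y * (a : P)⁻¹ * y⁻¹)) * ((b : P) * (y * (b : P)⁻¹ * y⁻¹))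
    have h1 := hab _ (hcm b b.2) _ (hD.conj_mem _ (D.inv_mem a.2) y)
    calc ((a : P) * b) * (y * ((a : P) * b)⁻¹ * y⁻¹) = a * (((b : P) * (y * (b : P)⁻¹ * y⁻¹)) * (y * (a : P)⁻¹ * y⁻¹)) := by group
      _ = a * ((y * (a : P)⁻¹ * y⁻¹) * ((b : P) * (y * (b : P)⁻¹ * y⁻¹))) := by rw [h1]
      _ = _ := by group)
  let M : Subgroup P := φ.range.map D.subtype
  have hMmem : ∀ d ∈ D, d * (y * d⁻¹ * y⁻¹) ∈ M := fun d hd => ⟨φ ⟨d, hd⟩, ⟨⟨d, hd⟩, rfl⟩, rfl⟩
  have hMD : M ≤ D := Subgroup.map_subtype_le _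
  have hMy : ∀ m ∈ M, y * m * y⁻¹ ∈ M := by
    rintro _ ⟨_, ⟨d, rfl⟩, rfl⟩
    have h1 := hMmem _ (hD.conj_mem d d.2 y)
    have h2 : y * (d : P) * y⁻¹ * (y * (y * (d : P) * y⁻¹)⁻¹ * y⁻¹) = y * ((d : P) * (y * (d : P)⁻¹ * y⁻¹)) * y⁻¹ := by group
    rw [h2] at h1
    exact h1
  have hMn' : ∀ k : ℕ, ∀ m ∈ M, y ^ k * m * (y ^ k)⁻¹ ∈ M := by
    intro k
    induction k with
    | zero => intro m hm; simpa using hm
    | succ k ih =>
      intro m hm
      have h1 := hMy _ (ih m hm)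
      have h2 : y * (y ^ k * m * (y ^ k)⁻¹) * y⁻¹ = y ^ (k + 1) * m * (y ^ (k + 1))⁻¹ := by
        rw [pow_succ']; group
      rw [h2] at h1
      exact h1
  have hz : ∀ k : ℤ, ∃ n : ℕ, y ^ k = y ^ n := by
    intro k
    have h1 : y ^ k ∈ zpowers y := ⟨k, rfl⟩
    rw [← mem_powers_iff_mem_zpowers] at h1
    obtain ⟨n, hn⟩ := h1
    exact ⟨n, hn.symm⟩
  haveI hMn : M.Normal := by
    constructor
    intro m hm g
    obtain ⟨d, hd, k, rfl⟩ := hgen g
    obtain ⟨n, hn⟩ := hz k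
    rw [hn]
    have h1 := hMn' n m hm
    have h2 : d * y ^ n * m * (d * y ^ n)⁻¹ = d * (y ^ n * m * (y ^ n)⁻¹) * d⁻¹ := by group
    rw [h2, hab d hd _ (hMD h1), mul_assoc, mul_inv_cancel, mul_one]
    exact h1
  -- `[d, y ^ n] ∈ M`
  have hdn : ∀ n : ℕ, ∀ d ∈ D, d * y ^ n * d⁻¹ * (y ^ n)⁻¹ ∈ M := by
    intro n
    induction n with
    | zero => intro d hd; simp only [pow_zero, mul_one, mul_inv_cancel, inv_one]; exact M.one_mem
    | succ n ih =>
      intro d hd
      have h1 := ih d hd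
      have h2 := hMn' n _ (hMmem d hd)
      have h3 : d * y ^ (n + 1) * d⁻¹ * (y ^ (n + 1))⁻¹ =
          (d * y ^ n * d⁻¹ * (y ^ n)⁻¹) * (y ^ n * (d * (y * d⁻¹ * y⁻¹)) * (y ^ n)⁻¹) := by
        rw [pow_succ]; group
      rw [h3]
      exact M.mul_mem h1 h2
  have hcomm : ∀ d ∈ D, ∀ g : P, d * g * d⁻¹ * g⁻¹ ∈ M := by
    intro d hd g
    obtain ⟨e, he, k, rfl⟩ := hgen g
    obtain ⟨n, hn⟩ := hz k
    rw [hn]
    have h1 := hdn n d hd
    have h2 : d * (e * y ^ n) * d⁻¹ * (e * y ^ n)⁻¹ = (d * e) * (y ^ n * d⁻¹ * (y ^ n)⁻¹ ) * e⁻¹ := by group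
    have h3 := hab e he _ (hD.conj_mem _ (D.inv_mem hd) (y ^ n))
    rw [h2, hab d hd e he]
    have h4 : e * d * (y ^ n * d⁻¹ * (y ^ n)⁻¹) * e⁻¹ = e * (d * y ^ n * d⁻¹ * (y ^ n)⁻¹) * e⁻¹ := by group
    rw [h4]
    exact hMn.conj_mem _ h1 e
  have hPM := comm_le_of_gen D M y hgen hcomm
  -- counting
  have hMcard : Nat.card M = Nat.card φ.range := Subgroup.card_map_of_injective D.subtype_injective
  have hker : Nat.card φ.ker * Nat.card φ.range = Nat.card D := by
    rw [← Subgroup.index_ker, Subgroup.card_mul_index]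
  have hkerc : Nat.card (D.subgroupOf (centralizer ({y} : Set P))) ≤ Nat.card φ.ker := by
    apply Nat.card_le_card_of_injective (fun x : D.subgroupOf (centralizer ({y} : Set P)) =>
      (⟨⟨(x.1 : P), mem_subgroupOf.1 x.2⟩, by
        rw [MonoidHom.mem_ker]
        apply Subtype.ext
        change (x.1 : P) * (y * (x.1 : P)⁻¹ * y⁻¹) = 1
        have h1 := mem_centralizer_singleton_iff.1 x.1.2
        calc (x.1 : P) * (y * (x.1 : P)⁻¹ * y⁻¹) = (x.1 : P) * y * (x.1 : P)⁻¹ * y⁻¹ := by group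
          _ = 1 := by rw [h1]; group⟩ : φ.ker))
    intro a b hab'
    have h1 : (a.1 : P) = (b.1 : P) := congrArg (fun z : φ.ker => ((z : D) : P)) hab'
    exact Subtype.ext (Subtype.ext h1)
  have h2 := Subgroup.card_mul_index (D.subgroupOf (centralizer ({y} : Set P)))
  have h3 : (D.subgroupOf (centralizer ({y} : Set P))).index ≤ D.index :=
    Nat.le_of_dvd (Nat.pos_of_ne_zero Subgroup.index_ne_zero_of_finite) (Subgroup.relIndex_dvd_index_of_normal D _)
  have h4 := Subgroup.card_mul_index D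
  have h5 := Subgroup.card_mul_index (commutator P)
  have h6 : Nat.card (commutator P) ≤ Nat.card φ.range := by
    rw [← hMcard]; exact Subgroup.card_le_of_le hPM
  have h7 : Nat.card (commutator P) * Nat.card (centralizer ({y} : Set P)) ≤
      Nat.card (commutator P) * (commutator P).index := by
    rw [h5, ← h4, ← h2, ← hker]
    calc Nat.card (commutator P) * (Nat.card (D.subgroupOf (centralizer ({y} : Set P))) * (D.subgroupOf (centralizer ({y} : Set P))).index)
        ≤ Nat.card φ.range * (Nat.card φ.ker * D.index) := Nat.mul_le_mul h6 (Nat.mul_le_mul hkerc h3)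
      _ = Nat.card φ.ker * Nat.card φ.range * D.index := by ring
  exact Nat.le_of_mul_le_mul_left h7 Nat.card_pos

end grp

end CfsgLib.Abq
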