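import Mathlib
import Cfsg.Agent.LibAbq1

/-!
# Sylow subgroups with abelianization of order `p ^ 2`, II: wreath-type `p`-groups (helper17)
-/

set_option autoImplicit false
set_option linter.all false

namespace CfsgLib.Abq

open Subgroup
open scoped commutatorElement

universe u

section grp

variable {P : Type u} [Group P] [Finite P]

/-- the wreath product configuration: `A ∩ P' ≤ A'` -/
theorem wreath {p : ℕ} [hp : Fact p.Prime] (D : Subgroup P) [hD : D.Normal] (y : P)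
    (hgen : ∀ g : P, ∃ d ∈ D, ∃ k : ℤ, g = d * y ^ k) (hyp : y ^ p ∈ D) (A B : Subgroup P)
    (hAD : A ≤ D) (hBD : B ≤ D) (hAB : ∀ a ∈ A, ∀ b ∈ B, a * b = b * a) (hdis : A ⊓ B = ⊥)
    (hdec : ∀ d ∈ D, ∃ a ∈ A, ∃ b ∈ B, d = a * b)
    (hconj : ∀ a ∈ A, ∀ i : ℕ, 0 < i → i < p → y ^ i * a * (y ^ i)⁻¹ ∈ B) :
    ∀ a (ha : a ∈ A), a ∈ commutator P → (⟨a, ha⟩ : A) ∈ commutator A := by
  classical
  -- the projection
  have huniq : ∀ a ∈ A, ∀ b ∈ B, ∀ a' ∈ A, ∀ b' ∈ B, a * b = a' * b' → a = a' := by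
    intro a ha b hb a' ha' b' hb' h
    have h1 : a'⁻¹ * a = b' * b⁻¹ := by
      calc a'⁻¹ * a = a'⁻¹ * (a * b) * b⁻¹ := by group
        _ = b' * b⁻¹ := by rw [h]; group
    have h2 : a'⁻¹ * a ∈ A ⊓ B := ⟨A.mul_mem (A.inv_mem ha') ha, by rw [h1]; exact B.mul_mem hb' (B.inv_mem hb)⟩
    rw [hdis, mem_bot, inv_mul_eq_one] at h2
    exact h2.symm
  choose! f hfA g hgB hfg using hdec
  let pr : D →* A := MonoidHom.mk' (fun d => ⟨f d, hfA d d.2⟩) (by
    intro a b
    apply Subtype.ext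
    change f ((a : P) * b) = f a * f b
    have h1 := hfg _ (D.mul_mem a.2 b.2)
    have h2 := hfg _ a.2
    have h3 := hfg _ b.2
    refine huniq _ (hfA _ (D.mul_mem a.2 b.2)) _ (hgB _ (D.mul_mem a.2 b.2)) _
      (A.mul_mem (hfA _ a.2) (hfA _ b.2)) (g a * g b) (B.mul_mem (hgB _ a.2) (hgB _ b.2)) ?_
    rw [← h1]
    calc (a : P) * b = f a * g a * (f b * g b) := by rw [← h2, ← h3]
      _ = f a * (g a * f b) * g b := by group
      _ = f a * (f b * g a) * g b := by rw [hAB _ (hfA _ b.2) _ (hgB _ a.2)]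
      _ = _ := by group)
  have hprA : ∀ a (ha : a ∈ A), pr ⟨a, hAD ha⟩ = ⟨a, ha⟩ := by
    intro a ha
    apply Subtype.ext
    change f a = a
    exact huniq _ (hfA _ (hAD ha)) _ (hgB _ (hAD ha)) a ha 1 B.one_mem (by rw [← hfg _ (hAD ha), mul_one])
  have hprB : ∀ b (hb : b ∈ B), pr ⟨b, hBD hb⟩ = 1 := by
    intro b hb
    apply Subtype.ext
    change f b = 1
    exact huniq _ (hfA _ (hBD hb)) _ (hgB _ (hBD hb)) 1 A.one_mem b hb (by rw [← hfg _ (hBD hb), one_mul])
  -- conjugation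
  let cj : P → (D →* D) := fun u => MonoidHom.mk' (fun d => ⟨u * d * u⁻¹, hD.conj_mem d d.2 u⟩) (by
    intro a b
    apply Subtype.ext
    change u * ((a : P) * b) * u⁻¹ = (u * a * u⁻¹) * (u * b * u⁻¹)
    group)
  let F : P → (D →* Abelianization A) := fun u => (Abelianization.of.comp pr).comp (cj u)
  have hFmul : ∀ u v : P, ∀ d : D, F u (cj v d) = F (u * v) d := by
    intro u v d
    change Abelianization.of (pr (cj u (cj v d))) = Abelianization.of (pr (cj (u * v) d))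
    congr 2
    apply Subtype.ext
    change u * (v * (d : P) * v⁻¹) * u⁻¹ = (u * v) * d * (u * v)⁻¹
    group
  have hFD : ∀ e ∈ D, ∀ u : P, ∀ d : D, F (e * u) d = F u d := by
    intro e he u d
    change Abelianization.of (pr (cj (e * u) d)) = Abelianization.of (pr (cj u d))
    have h1 : cj (e * u) d = ⟨e, he⟩ * cj u d * (⟨e, he⟩ : D)⁻¹ := by
      apply Subtype.ext
      change (e * u) * (d : P) * (e * u)⁻¹ = e * (u * d * u⁻¹) * e⁻¹
      group
    rw [h1, map_mul, map_mul, map_mul, map_mul, mul_comm, map_inv, map_inv, inv_mul_cancel_left]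
  let T : D → Abelianization A := fun d => ∏ i ∈ Finset.range p, F (y ^ i) d
  have hTmul : ∀ a b : D, T (a * b) = T a * T b := by
    intro a b
    simp only [T]
    rw [← Finset.prod_mul_distrib]
    exact Finset.prod_congr rfl fun i _ => map_mul _ _ _
  have hTy : ∀ d : D, T (cj y d) = T d := by
    intro d
    simp only [T]
    have h1 : ∀ i ∈ Finset.range p, F (y ^ i) (cj y d) = F (y ^ (i + 1)) d := by
      intro i _
      rw [hFmul, ← pow_succ]
    rw [Finset.prod_congr rfl h1]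
    obtain ⟨q, hq⟩ : ∃ q, p = q + 1 := ⟨p - 1, by have := hp.out.pos; omega⟩
    rw [hq, Finset.prod_range_succ (fun i => F (y ^ (i + 1)) d), Finset.prod_range_succ' (fun i => F (y ^ i) d)]
    have h2 : F (y ^ (q + 1)) d = F (y ^ 0) d := by
      have h3 := hFD (y ^ (q + 1)) (by rw [← hq]; exact hyp) 1 d
      rw [mul_one] at h3
      rw [h3, pow_zero]
    rw [h2]
  have hTd : ∀ e ∈ D, ∀ d : D, T (cj e d) = T d := by
    intro e he d
    simp only [T]
    refine Finset.prod_congr rfl fun i _ => ?_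
    rw [hFmul]
    have h1 : y ^ i * e = (y ^ i * e * (y ^ i)⁻¹) * y ^ i := by group
    rw [h1]
    exact hFD _ (hD.conj_mem e he (y ^ i)) _ d
  have hcjmul : ∀ u v : P, ∀ d : D, cj (u * v) d = cj u (cj v d) := by
    intro u v d
    apply Subtype.ext
    change (u * v) * (d : P) * (u * v)⁻¹ = u * (v * d * v⁻¹) * u⁻¹
    group
  have hTyn : ∀ n : ℕ, ∀ d : D, T (cj (y ^ n) d) = T d := by
    intro n
    induction n with
    | zero =>
      intro d
      congr 1
      apply Subtype.ext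
      change y ^ 0 * (d : P) * (y ^ 0)⁻¹ = d
      simp
    | succ n ih =>
      intro d
      rw [pow_succ, hcjmul, ih, hTy]
  have hz : ∀ k : ℤ, ∃ n : ℕ, y ^ k = y ^ n := by
    intro k
    have h1 : y ^ k ∈ zpowers y := ⟨k, rfl⟩
    rw [← mem_powers_iff_mem_zpowers] at h1
    obtain ⟨n, hn⟩ := h1
    exact ⟨n, hn.symm⟩
  have hTg : ∀ u : P, ∀ d : D, T (cj u d) = T d := by
    intro u d
    obtain ⟨e, he, k, rfl⟩ := hgen u
    obtain ⟨n, hn⟩ := hz k
    rw [hn, hcjmul, hTd e he, hTyn]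
  let TT : D →* Abelianization A := MonoidHom.mk' T hTmul
  let K : Subgroup P := TT.ker.map D.subtype
  have hKmem : ∀ d (hd : d ∈ D), T ⟨d, hd⟩ = 1 → d ∈ K := fun d hd h => ⟨⟨d, hd⟩, h, rfl⟩
  haveI hKn : K.Normal := by
    constructor
    rintro _ ⟨d, hd, rfl⟩ u
    have h1 : T (cj u d) = 1 := by rw [hTg]; exact hd
    exact hKmem _ (hD.conj_mem d d.2 u) h1
  have hPK : commutator P ≤ K := by
    refine comm_le_of_gen D K y hgen ?_
    intro d hd u
    have h0 : d * u * d⁻¹ * u⁻¹ = d * (u * d⁻¹ * u⁻¹) := by group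
    rw [h0]
    refine hKmem _ (D.mul_mem hd (hD.conj_mem _ (D.inv_mem hd) u)) ?_
    have h1 : (⟨d * (u * d⁻¹ * u⁻¹), D.mul_mem hd (hD.conj_mem _ (D.inv_mem hd) u)⟩ : D) =
        ⟨d, hd⟩ * cj u (⟨d, hd⟩⁻¹) := rfl
    rw [h1, hTmul, hTg]
    change TT _ * TT _ = 1
    rw [map_inv, mul_inv_cancel]
  intro a ha haP
  obtain ⟨⟨d, hd⟩, hdk, hda⟩ := hPK haP
  have hda' : d = a := hda
  subst hda'
  have h1 : T ⟨d, hd⟩ = 1 := hdk
  have h2 : T ⟨d, hd⟩ = Abelianization.of (⟨d, ha⟩ : A) := by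
    simp only [T]
    rw [Finset.prod_eq_single 0]
    · change Abelianization.of (pr (cj (y ^ 0) ⟨d, hd⟩)) = _
      rw [← hprA d ha]
      congr 2
      apply Subtype.ext
      change y ^ 0 * d * (y ^ 0)⁻¹ = d
      simp
    · intro i hi hi0
      change Abelianization.of (pr (cj (y ^ i) ⟨d, hd⟩)) = 1
      have h3 := hconj d ha i (Nat.pos_of_ne_zero hi0) (Finset.mem_range.1 hi)
      have h4 : pr (cj (y ^ i) ⟨d, hd⟩) = 1 := hprB _ h3
      rw [h4, map_one]
    · intro h3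
      exact absurd (Finset.mem_range.2 hp.out.pos) h3
  rw [h2] at h1
  exact (QuotientGroup.eq_one_iff _).1 h1

end grp

end CfsgLib.Abq
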