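import Mathlib
import Cfsg.Agent.LibAbq2

/-!
# Sylow subgroups with abelianization of order `p ^ 2`, III (helper17)
-/

set_option autoImplicit false
set_option linter.all false

namespace CfsgLib.Abq

open Subgroup Cfsg
open Pointwise
open scoped commutatorElement

universe u

variable {G : Type u} [Group G] [Finite G] {p : ℕ} [hp : Fact p.Prime]

theorem comm_eq_bot {A : Type u} [Group A] (h : IsMulCommutative A) : commutator A = ⊥ := by
  rw [eq_bot_iff, commutator_def, Subgroup.commutator_le]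
  intro a _ b _
  rw [mem_bot, commutatorElement_eq_one_iff_mul_comm]
  exact h.is_comm.comm a b

theorem sq_le {P : Subgroup G} (hP : IsPGroup p P) (h2 : p ^ 2 ≤ Nat.card P) : p ^ 2 ≤ (commutator P).index := by
  by_cases hc : IsMulCommutative P
  · rw [comm_eq_bot hc, index_bot]; exact h2
  · refine (CfsgLib.H7Sec.index_frattini_ge hP hc).trans ?_
    exact Nat.le_of_dvd (Nat.pos_of_ne_zero index_ne_zero_of_finite)
      (index_dvd_of_le (CfsgLib.LE.commutator_le_frattini hP))

theorem comm_index_congr {A B : Type u} [Group A] [Group B] (e : A ≃* B) :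
    (commutator A).index = (commutator B).index :=
  Nat.card_congr e.abelianizationCongr.toEquiv

theorem relIndex_eq (P : Subgroup G) : (⁅P, P⁆).relIndex P = (commutator P).index := by
  rw [← Subgroup.map_subtype_commutator, relIndex, subgroupOf,
    comap_map_eq_self_of_injective P.subtype_injective]

theorem map_cent_le (P : Subgroup G) {x : G} (hx : x ∈ P) :
    (centralizer ({⟨x, hx⟩} : Set P)).map P.subtype ≤ centralizer ({x} : Set G) := by
  rintro _ ⟨g, hg, rfl⟩
  rw [mem_centralizer_singleton_iff]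
  exact congrArg Subtype.val (mem_centralizer_singleton_iff.1 hg)

theorem exists_sylow {x : G} (hx : ∃ k : ℕ, orderOf x = p ^ k) : ∃ R : Sylow p G, x ∈ (R : Subgroup G) := by
  obtain ⟨k, hk⟩ := hx
  have h1 : IsPGroup p (zpowers x) := IsPGroup.of_card (n := k) (by rw [Nat.card_zpowers, hk])
  obtain ⟨R, hR⟩ := h1.exists_le_sylow
  exact ⟨R, hR (mem_zpowers x)⟩

theorem back (P : Sylow p G) (hbig : p ^ 2 ∣ Nat.card G) {x : G} (hx : ∃ k : ℕ, orderOf x = p ^ k)
    (hc : (Nat.card (centralizer ({x} : Set G))).factorization p = 2) :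
    (commutator (P : Subgroup G)).index = p ^ 2 := by
  obtain ⟨R, hxR⟩ := exists_sylow hx
  rw [comm_index_congr (Sylow.equiv P R)]
  have hRcard : p ^ 2 ≤ Nat.card (R : Subgroup G) :=
    Nat.le_of_dvd Nat.card_pos (R.pow_dvd_card_of_pow_dvd_card hbig)
  refine le_antisymm ?_ (sq_le R.isPGroup' hRcard)
  have h1 := index_le (P := (R : Subgroup G)) ⟨x, hxR⟩
  refine h1.trans ?_
  obtain ⟨j, hj⟩ := IsPGroup.iff_card.1 (R.isPGroup'.to_subgroup (centralizer ({⟨x, hxR⟩} : Set (R : Subgroup G))))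
  rw [hj]
  have h2 : p ^ j ∣ Nat.card (centralizer ({x} : Set G)) := by
    rw [← hj, ← Subgroup.card_map_of_injective (R : Subgroup G).subtype_injective
      (K := centralizer ({⟨x, hxR⟩} : Set (R : Subgroup G)))]
    exact card_dvd_of_le (map_cent_le _ hxR)
  have h3 := (hp.out.pow_dvd_iff_le_factorization Nat.card_pos.ne').1 h2
  rw [hc] at h3
  exact Nat.pow_le_pow_right hp.out.pos h3

theorem fwd_abelian (P : Sylow p G) (N : Subgroup G) [hN : N.Normal]
    (hab : ∀ a ∈ N ⊓ (P : Subgroup G), ∀ b ∈ N ⊓ (P : Subgroup G), a * b = b * a) {y : G}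
    (hy : y ∈ (P : Subgroup G))
    (hgen : ∀ g ∈ (P : Subgroup G), ∃ d ∈ N ⊓ (P : Subgroup G), ∃ k : ℤ, g = d * y ^ k)
    (hidx : (commutator (P : Subgroup G)).index = p ^ 2) :
    (Nat.card (centralizer ({y} : Set G))).factorization p = 2 := by
  have key : ∀ P₁ : Sylow p G, ∀ hy₁ : y ∈ (P₁ : Subgroup G),
      Nat.card (centralizer ({⟨y, hy₁⟩} : Set (P₁ : Subgroup G))) = p ^ 2 := by
    intro P₁ hy₁
    obtain ⟨g, hg⟩ := MulAction.exists_smul_eq G P P₁
    have hmem : ∀ z : G, z ∈ (P₁ : Subgroup G) ↔ g⁻¹ * z * g ∈ (P : Subgroup G) := by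
      intro z
      have h1 : (P₁ : Subgroup G) = MulAut.conj g • (P : Subgroup G) := by rw [← hg]; rfl
      rw [h1]
      exact CfsgLib.H14MinNorm.mem_conj
    have hcard : Nat.card ((P₁ : Subgroup G).map (QuotientGroup.mk' N)) =
        Nat.card ((P : Subgroup G).map (QuotientGroup.mk' N)) := by
      have h1 : (P₁ : Subgroup G).map (QuotientGroup.mk' N) =
          MulAut.conj (QuotientGroup.mk' N g) • ((P : Subgroup G).map (QuotientGroup.mk' N)) := by
        ext z
        rw [CfsgLib.H14MinNorm.mem_conj]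
        constructor
        · rintro ⟨a, ha, rfl⟩
          refine ⟨g⁻¹ * a * g, (hmem a).1 ha, ?_⟩
          simp only [map_mul, map_inv]
        · rintro ⟨a, ha, hz⟩
          refine ⟨g * a * g⁻¹, (hmem _).2 ?_, ?_⟩
          · have h2 : g⁻¹ * (g * a * g⁻¹) * g = a := by group
            rw [h2]; exact ha
          · simp only [map_mul, map_inv]
            rw [hz]; group
      rw [h1]
      exact Nat.card_congr (Subgroup.equivSMul _ _).toEquiv.symm
    have hle1 : zpowers (QuotientGroup.mk' N y) ≤ (P₁ : Subgroup G).map (QuotientGroup.mk' N) :=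
      (zpowers_le).2 ⟨y, hy₁, rfl⟩
    have hle2 : (P : Subgroup G).map (QuotientGroup.mk' N) ≤ zpowers (QuotientGroup.mk' N y) := by
      rintro _ ⟨a, ha, rfl⟩
      obtain ⟨d, hd, k, rfl⟩ := hgen a ha
      refine ⟨k, ?_⟩
      have h1 : QuotientGroup.mk' N d = 1 := (QuotientGroup.eq_one_iff _).2 hd.1
      change (QuotientGroup.mk' N y) ^ k = _
      rw [map_mul, h1, one_mul, map_zpow]
    have heq : zpowers (QuotientGroup.mk' N y) = (P₁ : Subgroup G).map (QuotientGroup.mk' N) := by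
      apply Subgroup.eq_of_le_of_card_ge hle1
      rw [hcard]
      exact Subgroup.card_le_of_le hle2
    have hgen₁ : ∀ z : (P₁ : Subgroup G), ∃ d ∈ N.subgroupOf (P₁ : Subgroup G), ∃ k : ℤ,
        z = d * (⟨y, hy₁⟩ : (P₁ : Subgroup G)) ^ k := by
      intro z
      have h1 : QuotientGroup.mk' N (z : G) ∈ zpowers (QuotientGroup.mk' N y) := by
        rw [heq]; exact ⟨z, z.2, rfl⟩
      obtain ⟨k, hk⟩ := h1
      refine ⟨z * ((⟨y, hy₁⟩ : (P₁ : Subgroup G)) ^ k)⁻¹, ?_, k, by group⟩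
      rw [mem_subgroupOf]
      change (z : G) * ((((⟨y, hy₁⟩ : (P₁ : Subgroup G)) ^ k : (P₁ : Subgroup G)) : G))⁻¹ ∈ N
      rw [← QuotientGroup.eq_one_iff, ← QuotientGroup.mk'_apply, map_mul, map_inv, ← hk]
      push_cast
      rw [← map_zpow]
      simp
    have hab₁ : ∀ a ∈ N.subgroupOf (P₁ : Subgroup G), ∀ b ∈ N.subgroupOf (P₁ : Subgroup G), a * b = b * a := by
      intro a ha b hb
      apply Subtype.ext
      have h1 : g⁻¹ * (a : G) * g ∈ N ⊓ (P : Subgroup G) :=
        ⟨by have := hN.conj_mem _ (mem_subgroupOf.1 ha) g⁻¹; rwa [inv_inv] at this, (hmem a).1 a.2⟩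
      have h2 : g⁻¹ * (b : G) * g ∈ N ⊓ (P : Subgroup G) :=
        ⟨by have := hN.conj_mem _ (mem_subgroupOf.1 hb) g⁻¹; rwa [inv_inv] at this, (hmem b).1 b.2⟩
      have h3 := hab _ h1 _ h2
      change (a : G) * b = b * a
      calc (a : G) * b = g * ((g⁻¹ * (a : G) * g) * (g⁻¹ * (b : G) * g)) * g⁻¹ := by group
        _ = b * a := by rw [h3]; group
    rw [card_cent (P := (P₁ : Subgroup G)) (N.subgroupOf (P₁ : Subgroup G)) hab₁ ⟨y, hy₁⟩ hgen₁,
      ← comm_index_congr (Sylow.equiv P P₁), hidx]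
  apply le_antisymm
  · -- upper bound
    obtain ⟨Q⟩ : Nonempty (Sylow p (centralizer ({y} : Set G))) := inferInstance
    have hyp : ∃ k : ℕ, orderOf y = p ^ k := by
      obtain ⟨k, hk⟩ := IsPGroup.iff_orderOf.1 P.isPGroup' ⟨y, hy⟩
      exact ⟨k, by rw [← hk, Subgroup.orderOf_mk]⟩
    have hyC : y ∈ centralizer ({y} : Set G) := mem_centralizer_singleton_iff.2 rfl
    have hZn : (zpowers (⟨y, hyC⟩ : centralizer ({y} : Set G))).Normal := by
      constructor
      rintro _ ⟨k, rfl⟩ g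
      have h1 : g * (⟨y, hyC⟩ : centralizer ({y} : Set G)) = ⟨y, hyC⟩ * g :=
        Subtype.ext (mem_centralizer_singleton_iff.1 g.2)
      have h2 : g * (⟨y, hyC⟩ : centralizer ({y} : Set G)) ^ k = (⟨y, hyC⟩ : centralizer ({y} : Set G)) ^ k * g :=
        (show Commute g _ from h1).zpow_right k
      refine ⟨k, ?_⟩
      change (⟨y, hyC⟩ : centralizer ({y} : Set G)) ^ k = g * (⟨y, hyC⟩ : centralizer ({y} : Set G)) ^ k * g⁻¹
      rw [h2, mul_inv_cancel_right]
    have hZp : IsPGroup p (zpowers (⟨y, hyC⟩ : centralizer ({y} : Set G))) := by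
      obtain ⟨k, hk⟩ := hyp
      exact IsPGroup.of_card (n := k) (by rw [Nat.card_zpowers, Subgroup.orderOf_mk, hk])
    have hyQ : (⟨y, hyC⟩ : centralizer ({y} : Set G)) ∈ (Q : Subgroup (centralizer ({y} : Set G))) :=
      CfsgLib.Cores.normal_le_sylow hZn hZp Q (mem_zpowers _)
    obtain ⟨P₁, hP₁⟩ := (Q.isPGroup'.map (centralizer ({y} : Set G)).subtype).exists_le_sylow
    have hy₁ : y ∈ (P₁ : Subgroup G) := hP₁ ⟨⟨y, hyC⟩, hyQ, rfl⟩
    have h1 : Nat.card (Q : Subgroup (centralizer ({y} : Set G))) ≤ p ^ 2 := by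
      rw [← key P₁ hy₁]
      apply Nat.card_le_card_of_injective (fun q : (Q : Subgroup (centralizer ({y} : Set G))) =>
        (⟨⟨(q.1 : G), hP₁ ⟨q.1, q.2, rfl⟩⟩, mem_centralizer_singleton_iff.2
          (Subtype.ext (mem_centralizer_singleton_iff.1 q.1.2))⟩ :
          centralizer ({⟨y, hy₁⟩} : Set (P₁ : Subgroup G))))
      intro a b hab'
      have h2 : (a.1 : G) = (b.1 : G) :=
        congrArg (fun z : centralizer ({⟨y, hy₁⟩} : Set (P₁ : Subgroup G)) => ((z : (P₁ : Subgroup G)) : G)) hab'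
      exact Subtype.ext (Subtype.ext h2)
    rw [Q.card_eq_multiplicity] at h1
    exact (Nat.pow_le_pow_iff_right hp.out.one_lt).1 h1
  · rw [← hp.out.pow_dvd_iff_le_factorization Nat.card_pos.ne', ← key P hy,
      ← Subgroup.card_map_of_injective (P : Subgroup G).subtype_injective
      (K := centralizer ({⟨y, hy⟩} : Set (P : Subgroup G)))]
    exact card_dvd_of_le (map_cent_le _ hy)

end CfsgLib.Abq
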