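import Mathlib
import Cfsg.Agent.LibAbq3

/-!
# Sylow subgroups with abelianization of order `p ^ 2`, IV: non-abelian minimal normal subgroup (helper17)
-/

set_option autoImplicit false
set_option linter.all false

namespace CfsgLib.Abq

open Subgroup Cfsg
open CfsgLib.H14MinNorm CfsgLib.SolvMin CfsgLib.Comp
open Pointwise
open scoped commutatorElement

universe u

variable {G : Type u} [Group G] [Finite G] {p : ℕ} [hp : Fact p.Prime]

/-- decomposition of `N ∩ P` -/
theorem decomp (P : Sylow p G) {N T : Subgroup G} (hN : IsMinNormal N) (hna : ¬ IsMulCommutative N)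
    (hT : IsFactor N T) (hTsub : T.IsSubnormal) :
    ∀ r ∈ N ⊓ (P : Subgroup G), ∃ t ∈ T ⊓ (P : Subgroup G), ∃ m ∈ cofactor T ⊓ (P : Subgroup G), r = t * m := by
  have hcm := commute_cofactor hN.1 hT
  have hdis := factor_disjoint hN hna hT
  let X : Subgroup G :=
    { carrier := {t | t ∈ T ∧ ∃ m ∈ cofactor T, t * m ∈ (P : Subgroup G)}
      one_mem' := ⟨T.one_mem, 1, Subgroup.one_mem _, by rw [mul_one]; exact Subgroup.one_mem _⟩
      mul_mem' := by
        rintro a b ⟨ha, m, hm, ham⟩ ⟨hb, n, hn, hbn⟩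
        refine ⟨T.mul_mem ha hb, m * n, Subgroup.mul_mem _ hm hn, ?_⟩
        have h1 : a * b * (m * n) = a * m * (b * n) := by
          calc a * b * (m * n) = a * (b * m) * n := by group
            _ = a * m * (b * n) := by rw [hcm b hb m hm]; group
        rw [h1]
        exact Subgroup.mul_mem _ ham hbn
      inv_mem' := by
        rintro a ⟨ha, m, hm, ham⟩
        refine ⟨T.inv_mem ha, m⁻¹, Subgroup.inv_mem _ hm, ?_⟩
        have h1 : a⁻¹ * m⁻¹ = (a * m)⁻¹ := by rw [hcm a ha m hm]; group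
        rw [h1]
        exact Subgroup.inv_mem _ ham }
  have hXT : X ≤ T := fun t ht => ht.1
  have hXp : IsPGroup p X := by
    rintro ⟨t, ht, m, hm, htm⟩
    obtain ⟨k, hk⟩ := P.isPGroup' ⟨t * m, htm⟩
    refine ⟨k, ?_⟩
    apply Subtype.ext
    change t ^ p ^ k = 1
    have h1 : (t * m) ^ p ^ k = 1 := congrArg Subtype.val hk
    rw [(show Commute t m from hcm t ht m hm).mul_pow] at h1
    have h2 : t ^ p ^ k ∈ T ⊓ cofactor T := by
      refine ⟨T.pow_mem ht _, ?_⟩
      rw [eq_inv_of_mul_eq_one_left h1]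
      exact Subgroup.inv_mem _ (Subgroup.pow_mem _ hm _)
    rw [hdis, mem_bot] at h2
    exact h2
  obtain ⟨Q, hQ⟩ := CfsgLib.LE.sylow_inf_isSubnormal P hTsub
  have hQX : (Q : Subgroup T) ≤ X.subgroupOf T := by
    rw [hQ]
    intro t ht
    rw [mem_subgroupOf] at ht ⊢
    exact ⟨t.2, 1, Subgroup.one_mem _, by rw [mul_one]; exact ht⟩
  have hXQ : X.subgroupOf T = (Q : Subgroup T) := Q.is_maximal' (hXp.comap_subtype) hQX
  have hXP : X ≤ (P : Subgroup G) := by
    intro t ht
    have h1 : (⟨t, hXT ht⟩ : T) ∈ X.subgroupOf T := mem_subgroupOf.2 ht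
    rw [hXQ, hQ, mem_subgroupOf] at h1
    exact h1
  rintro r ⟨hrN, hrP⟩
  obtain ⟨t, ht, m, hm, rfl⟩ := exists_mul hN hT r hrN
  have htX : t ∈ X := ⟨ht, m, hm, hrP⟩
  refine ⟨t, ⟨ht, hXP htX⟩, m, ⟨hm, ?_⟩, rfl⟩
  have h1 : m = t⁻¹ * (t * m) := by group
  change m ∈ (P : Subgroup G)
  rw [h1]
  exact Subgroup.mul_mem _ (Subgroup.inv_mem _ (hXP htX)) hrP

theorem nonab (P : Sylow p G) (hna : ¬ IsMulCommutative (P : Subgroup G))
    (hgen : (frattini ↥(P : Subgroup G)).index = p ^ 2) (hcore : pPrimeCore p G = ⊥)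
    (hfrat : ((frattini ↥(P : Subgroup G)).map (P : Subgroup G).subtype).normalCore = ⊥)
    (hΦ : frattini ↥(P : Subgroup G) = commutator (P : Subgroup G))
    (hnas : ¬ ∃ S : Subgroup G, S.Normal ∧ IsSimpleGroup S ∧ ¬ IsMulCommutative S ∧ Subgroup.centralizer (S : Set G) = ⊥)
    (N : Subgroup G) [hNn : N.Normal] (hN1 : N ≠ ⊥) (hNmin : ∀ K : Subgroup G, K.Normal → K ≠ ⊥ → N ≤ K)
    (hNc : ¬ IsMulCommutative N) {x : G} (hx : x ∈ (P : Subgroup G))
    (hxg : ∀ y ∈ (P : Subgroup G), ∃ d ∈ N ⊓ (P : Subgroup G), ∃ k : ℤ, y = d * x ^ k) :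
    ∀ a ∈ N ⊓ (P : Subgroup G), ∀ b ∈ N ⊓ (P : Subgroup G), a * b = b * a := by
  classical
  have hN : IsMinNormal N := ⟨hNn, hN1, fun M hM hMN => by
    by_cases h : M = ⊥
    · exact Or.inl h
    · exact Or.inr (le_antisymm hMN (hNmin M hM h))⟩
  have hcN : centralizer (N : Set G) = ⊥ := by
    by_contra h
    have h1 := hNmin _ inferInstance h
    exact hNc (Subgroup.le_centralizer_iff_isMulCommutative.1 h1)
  obtain ⟨T, hT⟩ := exists_factor N hN1
  have hTs : IsSimpleGroup T := factor_simple hN hT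
  have hTna : ¬ IsMulCommutative T := factor_not_comm hN hNc hT
  have hTn : ¬ T.Normal := by
    intro h
    have h1 : T = N := (hN.2.2 T h hT.le).resolve_left hT.ne
    subst h1
    exact hnas ⟨T, h, hTs, hTna, hcN⟩
  have hTNn : (T.subgroupOf N).Normal := by
    constructor
    intro t ht n
    exact mem_subgroupOf.2 (hT.inv n n.2 t (mem_subgroupOf.1 ht))
  have hTsub : T.IsSubnormal := IsSubnormal.step T N hT.le hNn.isSubnormal hTNn
  have hTq : IsQuasisimple T := quasisimple_of_surjective (MonoidHom.id T) Function.surjective_id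
    (by rw [MonoidHom.ker_id]; exact bot_le) hTs (simple_nonabelian_perfect hTs hTna)
  have hTc : IsComponent T := ⟨hTsub, hTq⟩
  obtain ⟨⟨hF1, hFmin⟩, -, htr⟩ := CfsgLib.UMN.main P hna hgen hcore hfrat
  have hFN : generalizedFittingSubgroup G = N :=
    le_antisymm (hFmin N hNn hN1) (hNmin _ inferInstance hF1)
  rw [hFN] at htr
  have htrans : ∀ g : G, ∃ u ∈ (P : Subgroup G), MulAut.conj g • T = MulAut.conj u • T := by
    intro g
    have h1 : IsComponent (MulAut.conj g • T) := isComponent_map_equiv (MulAut.conj g) hTc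
    obtain ⟨u, hu, h2⟩ := htr hNc T (MulAut.conj g • T) hTc h1
    exact ⟨u, hu, h2⟩
  -- the stabilizer
  have hST : ∀ g : G, (∀ t ∈ T, g * t * g⁻¹ ∈ T) → MulAut.conj g • T = T := by
    intro g hg
    symm
    apply Subgroup.eq_of_le_of_card_ge
    · intro t ht
      have hcard : (T.map (MulAut.conj g).toMonoidHom) = T := by
        apply Subgroup.eq_of_le_of_card_ge
        · rintro _ ⟨s, hs, rfl⟩
          exact hg s hs
        · rw [Subgroup.card_map_of_injective (MulAut.conj g).injective]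
      rw [← hcard] at ht
      exact ht
    · exact (Nat.card_congr (Subgroup.equivSMul (MulAut.conj g) T).toEquiv).symm.le
  have hxS : MulAut.conj x • T ≠ T := by
    intro h
    apply hTn
    have h1 : ∀ k : ℤ, MulAut.conj (x ^ k) • T = T := by
      intro k
      have h3 : MulAut.conj x ∈ MulAction.stabilizer (MulAut G) T := h
      have h4 := (MulAction.stabilizer (MulAut G) T).zpow_mem h3 k
      rw [← map_zpow] at h4
      exact h4
    have h2 : ∀ u ∈ (P : Subgroup G), MulAut.conj u • T = T := by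
      intro u hu
      obtain ⟨d, hd, k, rfl⟩ := hxg u hu
      rw [map_mul, mul_smul, h1]
      exact hST d (hT.inv d hd.1)
    constructor
    intro t ht g
    obtain ⟨u, hu, h3⟩ := htrans g
    rw [h2 u hu] at h3
    rw [← h3, mem_conj]
    have h4 : g⁻¹ * (g * t * g⁻¹) * g = t := by group
    rw [h4]
    exact ht
  -- the index of `N ∩ P` in `P`
  obtain ⟨D, hD⟩ : ∃ D : Subgroup (P : Subgroup G), D = N.subgroupOf (P : Subgroup G) := ⟨_, rfl⟩
  haveI hDn : D.Normal := by rw [hD]; infer_instance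
  have hDmem : ∀ z : (P : Subgroup G), z ∈ D ↔ (z : G) ∈ N := by
    intro z; rw [hD]; exact mem_subgroupOf
  have hgenP : ∀ g : (P : Subgroup G), ∃ d ∈ D, ∃ k : ℤ, g = d * (⟨x, hx⟩ : (P : Subgroup G)) ^ k := by
    intro g
    obtain ⟨d, hd, k, hg⟩ := hxg g g.2
    exact ⟨⟨d, hd.2⟩, (hDmem _).2 hd.1, k, Subtype.ext (by push_cast; exact hg)⟩
  have hPD : commutator (P : Subgroup G) ≤ D := by
    refine comm_le_of_gen D D ⟨x, hx⟩ hgenP ?_
    intro d hd g
    have h1 : d * g * d⁻¹ * g⁻¹ = d * (g * d⁻¹ * g⁻¹) := by group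
    rw [h1]
    exact D.mul_mem hd (hDn.conj_mem _ (D.inv_mem hd) g)
  have hnle := CfsgLib.UMN.claimA P hcore hfrat N hN1
  have hDne : D ≠ commutator (P : Subgroup G) := by
    intro h
    apply hnle
    rintro z ⟨hz1, hz2⟩
    refine ⟨⟨z, hz2⟩, ?_, rfl⟩
    change (⟨z, hz2⟩ : (P : Subgroup G)) ∈ frattini ↥(P : Subgroup G)
    rw [hΦ, ← h]
    exact (hDmem _).2 hz1
  have hidx2 : (commutator (P : Subgroup G)).index = p ^ 2 := by rw [← hΦ, hgen]
  have hxD : (⟨x, hx⟩ : (P : Subgroup G)) ∉ D := by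
    intro h
    exact hxS (hST x (hT.inv x ((hDmem _).1 h)))
  have hDidx : D.index = p := by
    have h1 : D.index ∣ p ^ 2 := by rw [← hidx2]; exact index_dvd_of_le hPD
    obtain ⟨j, hj, hji⟩ := (Nat.dvd_prime_pow hp.out).1 h1
    have hj0 : j ≠ 0 := by
      rintro rfl
      rw [pow_zero, Subgroup.index_eq_one] at hji
      apply hxD
      rw [hji]
      trivial
    have hj2 : j ≠ 2 := by
      rintro rfl
      apply hDne
      symm
      have h2 := Subgroup.relIndex_mul_index hPD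
      rw [hidx2, hji] at h2
      have h3 : (commutator (P : Subgroup G)).relIndex D = 1 :=
        Nat.eq_of_mul_eq_mul_right (pow_pos hp.out.pos 2) (by rw [h2, one_mul])
      exact le_antisymm hPD (relIndex_eq_one.1 h3)
    have hj1 : j = 1 := by omega
    rw [hji, hj1, pow_one]
  have hxp : (⟨x, hx⟩ : (P : Subgroup G)) ^ p ∈ D := by
    have := D.pow_index_mem (⟨x, hx⟩ : (P : Subgroup G))
    rwa [hDidx] at this
  have hxpT : MulAut.conj (x ^ p) • T = T := hST _ (hT.inv _ ((hDmem _).1 hxp))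
  have hxi : ∀ i : ℕ, 0 < i → i < p → MulAut.conj (x ^ i) • T ≠ T := by
    intro i hi hip h
    apply hxS
    have hco : Nat.Coprime i p := Nat.Coprime.symm ((Nat.Prime.coprime_iff_not_dvd hp.out).2
      (Nat.not_dvd_of_pos_of_lt hi hip))
    have h3 : MulAut.conj (x ^ i) ∈ MulAction.stabilizer (MulAut G) T := h
    have h4 : MulAut.conj (x ^ p) ∈ MulAction.stabilizer (MulAut G) T := hxpT
    have h5 : (1 : ℤ) = (i : ℤ) * Nat.gcdA i p + (p : ℤ) * Nat.gcdB i p := by
      have := Nat.gcd_eq_gcd_ab i p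
      rw [hco.gcd_eq_one] at this
      exact_mod_cast this
    have h6 : MulAut.conj x = (MulAut.conj (x ^ i)) ^ (Nat.gcdA i p) * (MulAut.conj (x ^ p)) ^ (Nat.gcdB i p) := by
      rw [map_pow, map_pow, ← zpow_natCast, ← zpow_natCast, ← zpow_mul, ← zpow_mul, ← zpow_add, ← h5, zpow_one]
    have h7 : MulAut.conj x ∈ MulAction.stabilizer (MulAut G) T := by
      rw [h6]
      exact Subgroup.mul_mem _ (Subgroup.zpow_mem _ h3 _) (Subgroup.zpow_mem _ h4 _)
    exact h7
  have hdec := decomp P hN hNc hT hTsub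
  have hcm := commute_cofactor hN.1 hT
  -- the wreath product lemma
  obtain ⟨A, hA⟩ : ∃ A : Subgroup (P : Subgroup G), A = T.subgroupOf (P : Subgroup G) := ⟨_, rfl⟩
  obtain ⟨B, hB⟩ : ∃ B : Subgroup (P : Subgroup G), B = (cofactor T).subgroupOf (P : Subgroup G) := ⟨_, rfl⟩
  have hAmem : ∀ z : (P : Subgroup G), z ∈ A ↔ (z : G) ∈ T := by intro z; rw [hA]; exact mem_subgroupOf
  have hBmem : ∀ z : (P : Subgroup G), z ∈ B ↔ (z : G) ∈ cofactor T := by intro z; rw [hB]; exact mem_subgroupOf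
  have hAD : A ≤ D := fun z hz => (hDmem z).2 (hT.le ((hAmem z).1 hz))
  have hw := wreath D ⟨x, hx⟩ hgenP hxp A B hAD
    (fun z hz => (hDmem z).2 (cofactor_le hN.1 hT ((hBmem z).1 hz)))
    (fun a ha b hb => Subtype.ext (hcm _ ((hAmem a).1 ha) _ ((hBmem b).1 hb)))
    (by
      rw [eq_bot_iff]
      rintro z ⟨hz1, hz2⟩
      have h1 : (z : G) ∈ T ⊓ cofactor T := ⟨(hAmem z).1 hz1, (hBmem z).1 hz2⟩
      rw [factor_disjoint hN hNc hT, mem_bot] at h1
      exact Subtype.ext h1)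
    (by
      intro d hd
      obtain ⟨t, ht, m, hm, h⟩ := hdec d ⟨(hDmem d).1 hd, d.2⟩
      exact ⟨⟨t, ht.2⟩, (hAmem _).2 ht.1, ⟨m, hm.2⟩, (hBmem _).2 hm.1, Subtype.ext h⟩)
    (by
      intro a ha i hi hip
      rw [hBmem]
      have h1 : ((⟨x, hx⟩ : (P : Subgroup G)) ^ i * a * ((⟨x, hx⟩ : (P : Subgroup G)) ^ i)⁻¹ : G) =
          x ^ i * (a : G) * (x ^ i)⁻¹ := by push_cast; rfl
      have h2 : x ^ i * (a : G) * (x ^ i)⁻¹ ∈ MulAut.conj (x ^ i) • T := by
        rw [mem_conj]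
        have h3 : (x ^ i)⁻¹ * (x ^ i * (a : G) * (x ^ i)⁻¹) * x ^ i = a := by group
        rw [h3]
        exact (hAmem a).1 ha
      have h4 : MulAut.conj (x ^ i) • T ≤ cofactor T :=
        le_iSup (fun g : {g : G // MulAut.conj g • T ≠ T} => MulAut.conj (g : G) • T) ⟨x ^ i, hxi i hi hip⟩
      exact h4 h2)
  -- `A` is commutative
  have hAc : IsMulCommutative A := by
    by_contra hAna
    have hAp : IsPGroup p A := P.isPGroup'.to_subgroup A
    have h1 := CfsgLib.H7Sec.index_frattini_ge hAp hAna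
    have h2 : (frattini A).index ≤ (commutator A).index :=
      Nat.le_of_dvd (Nat.pos_of_ne_zero index_ne_zero_of_finite)
        (index_dvd_of_le (CfsgLib.LE.commutator_le_frattini hAp))
    have h3 : (commutator A).index ≤ (commutator (P : Subgroup G)).relIndex A := by
      refine Nat.le_of_dvd (Nat.pos_of_ne_zero index_ne_zero_of_finite) (index_dvd_of_le ?_)
      intro z hz
      exact hw z z.2 (mem_subgroupOf.1 hz)
    have h4 : (commutator (P : Subgroup G)).relIndex A ≤ (commutator (P : Subgroup G)).relIndex D :=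
      relIndex_le_of_le_right hAD index_ne_zero_of_finite
    have h5 : (commutator (P : Subgroup G)).relIndex D = p := by
      have h6 := Subgroup.relIndex_mul_index hPD
      rw [hidx2, hDidx, sq] at h6
      exact Nat.eq_of_mul_eq_mul_right hp.out.pos h6
    have h6 : p ^ 2 ≤ p := by
      calc p ^ 2 ≤ _ := h1
        _ ≤ _ := h2
        _ ≤ _ := h3
        _ ≤ _ := h4
        _ = p := h5
    have h7 := hp.out.two_le
    nlinarith
  have hTPc : ∀ a ∈ T ⊓ (P : Subgroup G), ∀ b ∈ T ⊓ (P : Subgroup G), a * b = b * a := by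
    intro a ha b hb
    have h1 := hAc.is_comm.comm ⟨⟨a, ha.2⟩, (hAmem _).2 ha.1⟩ ⟨⟨b, hb.2⟩, (hAmem _).2 hb.1⟩
    exact congrArg (fun z : A => ((z : (P : Subgroup G)) : G)) h1
  -- commutators centralize `T`
  have hc0 : ∀ r ∈ N ⊓ (P : Subgroup G), ∀ s ∈ N ⊓ (P : Subgroup G), ∀ t ∈ T,
      t * (r * s * r⁻¹ * s⁻¹) = (r * s * r⁻¹ * s⁻¹) * t := by
    intro r hr s hs t ht
    obtain ⟨a, ha, m, hm, rfl⟩ := hdec r hr
    obtain ⟨b, hb, n, hn, rfl⟩ := hdec s hs
    have h1 := hcm a ha.1 m hm.1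
    have h2 := hcm b hb.1 m hm.1
    have h3 := hcm a ha.1 n hn.1
    have h4 := hcm b hb.1 n hn.1
    have h5 := hTPc a ha b hb
    have h6 : a * m * (b * n) = b * n * (a * m) * (m⁻¹ * n⁻¹ * m * n) := by
      have e1 : a * m * (b * n) = (a * b) * (m * n) := by
        calc a * m * (b * n) = a * (m * b) * n := by group
          _ = _ := by rw [← h2]; group
      have e2 : b * n * (a * m) = (b * a) * (n * m) := by
        calc b * n * (a * m) = b * (n * a) * m := by group
          _ = _ := by rw [← h3]; group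
      rw [e1, e2, h5]; group
    have h7 : a * m * (b * n) * (a * m)⁻¹ * (b * n)⁻¹ = m * n * m⁻¹ * n⁻¹ := by
      have e1 : a * m * (b * n) = (a * b) * (m * n) := by
        calc a * m * (b * n) = a * (m * b) * n := by group
          _ = _ := by rw [← h2]; group
      have e2 : b * n * (a * m) = (b * a) * (n * m) := by
        calc b * n * (a * m) = b * (n * a) * m := by group
          _ = _ := by rw [← h3]; group
      have e3 : a * m * (b * n) * (a * m)⁻¹ * (b * n)⁻¹ = (a * m * (b * n)) * (b * n * (a * m))⁻¹ := by group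
      rw [e3, e1, e2, h5]
      have e4 : b * a * (m * n) * (b * a * (n * m))⁻¹ = (b * a) * (m * n * m⁻¹ * n⁻¹) * (b * a)⁻¹ := by group
      rw [e4]
      have e5 : (m * n * m⁻¹ * n⁻¹) ∈ cofactor T :=
        Subgroup.mul_mem _ (Subgroup.mul_mem _ (Subgroup.mul_mem _ hm.1 hn.1) (Subgroup.inv_mem _ hm.1))
          (Subgroup.inv_mem _ hn.1)
      rw [hcm (b * a) (T.mul_mem hb.1 ha.1) _ e5, mul_inv_cancel_right]
    rw [h7]
    exact hcm t ht _ (Subgroup.mul_mem _ (Subgroup.mul_mem _ (Subgroup.mul_mem _ hm.1 hn.1)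
      (Subgroup.inv_mem _ hm.1)) (Subgroup.inv_mem _ hn.1))
  intro r hr s hs
  have hc1 : ∀ g : G, MulAut.conj g • T ≤ centralizer ({r * s * r⁻¹ * s⁻¹} : Set G) := by
    intro g
    obtain ⟨u, hu, h1⟩ := htrans g
    rw [h1]
    intro z hz
    rw [mem_conj] at hz
    rw [mem_centralizer_singleton_iff]
    have hcj : ∀ r ∈ N ⊓ (P : Subgroup G), u⁻¹ * r * u ∈ N ⊓ (P : Subgroup G) := by
      intro r hr
      refine ⟨?_, Subgroup.mul_mem _ (Subgroup.mul_mem _ (Subgroup.inv_mem _ hu) hr.2) hu⟩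
      have := hNn.conj_mem _ hr.1 u⁻¹
      rwa [inv_inv] at this
    have h2 := hc0 _ (hcj r hr) _ (hcj s hs) _ hz
    have h3 : (u⁻¹ * r * u) * (u⁻¹ * s * u) * (u⁻¹ * r * u)⁻¹ * (u⁻¹ * s * u)⁻¹ =
        u⁻¹ * (r * s * r⁻¹ * s⁻¹) * u := by group
    rw [h3] at h2
    calc z * (r * s * r⁻¹ * s⁻¹) = u * ((u⁻¹ * z * u) * (u⁻¹ * (r * s * r⁻¹ * s⁻¹) * u)) * u⁻¹ := by group
      _ = (r * s * r⁻¹ * s⁻¹) * z := by rw [h2]; group
  have hNle : N ≤ centralizer ({r * s * r⁻¹ * s⁻¹} : Set G) := by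
    refine (le_sup_cofactor hN hT).trans (sup_le ?_ ?_)
    · have h1 := hc1 1
      rwa [map_one, one_smul] at h1
    · rw [cofactor]
      exact iSup_le fun g => hc1 g
  have h1 : r * s * r⁻¹ * s⁻¹ ∈ centralizer (N : Set G) := by
    rw [mem_centralizer_iff]
    intro n hn
    exact mem_centralizer_singleton_iff.1 (hNle hn)
  rw [hcN, mem_bot, mul_inv_eq_one, mul_inv_eq_iff_eq_mul] at h1
  exact h1

/-- the forward direction -/
theorem fwd (P : Sylow p G) (hcore : pPrimeCore p G = ⊥)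
    (hcore' : (⁅(P : Subgroup G), (P : Subgroup G)⁆).normalCore = ⊥)
    (hnas : ¬ ∃ S : Subgroup G, S.Normal ∧ IsSimpleGroup S ∧ ¬ IsMulCommutative S ∧ Subgroup.centralizer (S : Set G) = ⊥)
    (hidx : (commutator (P : Subgroup G)).index = p ^ 2) :
    ∃ x : G, (∃ k : ℕ, orderOf x = p ^ k) ∧ (Nat.card (Subgroup.centralizer ({x} : Set G))).factorization p = 2 := by
  by_cases hna : IsMulCommutative (P : Subgroup G)
  · refine ⟨1, ⟨0, by rw [orderOf_one, pow_zero]⟩, ?_⟩
    have h1 : Subgroup.centralizer ({1} : Set G) = ⊤ := by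
      rw [eq_top_iff]
      intro g _
      rw [mem_centralizer_singleton_iff, mul_one, one_mul]
    rw [h1, Subgroup.card_top]
    rw [comm_eq_bot hna, index_bot, P.card_eq_multiplicity] at hidx
    exact Nat.pow_right_injective hp.out.two_le hidx
  · have hle := CfsgLib.LE.commutator_le_frattini (p := p) P.isPGroup'
    have hgen : (frattini ↥(P : Subgroup G)).index = p ^ 2 := by
      refine le_antisymm ?_ (CfsgLib.H7Sec.index_frattini_ge P.isPGroup' hna)
      rw [← hidx]
      exact Nat.le_of_dvd (Nat.pos_of_ne_zero index_ne_zero_of_finite) (index_dvd_of_le hle)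
    have hΦ : frattini ↥(P : Subgroup G) = commutator (P : Subgroup G) := by
      symm
      have h2 := Subgroup.relIndex_mul_index hle
      rw [hidx, hgen] at h2
      have h3 : (commutator (P : Subgroup G)).relIndex (frattini ↥(P : Subgroup G)) = 1 :=
        Nat.eq_of_mul_eq_mul_right (pow_pos hp.out.pos 2) (by rw [h2, one_mul])
      exact le_antisymm hle (relIndex_eq_one.1 h3)
    have hfrat : ((frattini ↥(P : Subgroup G)).map (P : Subgroup G).subtype).normalCore = ⊥ := by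
      rw [hΦ, Subgroup.map_subtype_commutator]; exact hcore'
    obtain ⟨N, hNn, hN1, hNmin⟩ := CfsgLib.UMN.exists_N P hna hgen hcore hfrat
    obtain ⟨x, hx, hxg⟩ := CfsgLib.UMN.exists_x P hna hgen hcore hfrat N hN1
    refine ⟨x, ?_, ?_⟩
    · obtain ⟨k, hk⟩ := IsPGroup.iff_orderOf.1 P.isPGroup' ⟨x, hx⟩
      exact ⟨k, by rw [← hk, Subgroup.orderOf_mk]⟩
    · refine fwd_abelian P N ?_ hx hxg hidx
      by_cases hNc : IsMulCommutative N
      · intro a ha b hb
        exact congrArg Subtype.val (hNc.is_comm.comm ⟨a, ha.1⟩ ⟨b, hb.1⟩)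
      · exact nonab P hna hgen hcore hfrat hΦ hnas N hN1 hNmin hNc hx hxg

end CfsgLib.Abq
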