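import Mathlib
import Cfsg.Agent.EqBase
import Cfsg.Agent.LibMinN19

set_option autoImplicit false
set_option maxHeartbeats 400000
set_option linter.unusedSectionVars false

/-! Frobenius–Schur indicators of Clifford correspondents (helper19) -/

namespace CfsgLib.MinN19

open Cfsg CfsgLib.CharBasic CfsgLib.Clifford CfsgLib.Extend CfsgLib.CharIndA CfsgLib.CharNorm CfsgLib.FS
open scoped ComplexConjugate

universe u v w

/-- real irreducible characters have an invariant matrix -/
theorem exists_inv {G : Type u} [Group G] [Fintype G] {n : ℕ} {ρ : Representation ℂ G (Fin n → ℂ)} [hρ : ρ.IsIrreducible]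
    (hreal : ∀ g, (ρ.character g).im = 0) : ∃ X : Matrix (Fin n) (Fin n) ℂ, IsInv ρ X ∧ X ≠ 0 := by
  by_contra hex
  push Not at hex
  have h0 : ∀ E, avg ρ E = 0 := fun E => hex _ (isInv_avg ρ E)
  have h1 := irr_inner_self (⟨n, ρ, hρ, rfl⟩ : IsIrrCharacter G ρ.character)
  have h2 : ∑ g : G, ρ.character g * ρ.character g = 0 := by
    rw [sum_char_mul]; simp [h0]
  rw [classInner] at h1
  have h3 : ∑ g : G, ρ.character g * conj (ρ.character g) = 0 := by
    rw [← h2]
    refine Finset.sum_congr rfl fun g _ => ?_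
    rw [Complex.conj_eq_iff_im.2 (hreal g)]
  rw [h3, mul_zero] at h1
  exact zero_ne_one h1

/-- twisted Schur orthogonality -/
theorem twisted_zero {G : Type u} [Group G] [Fintype G] {n : ℕ} {ρ : Representation ℂ G (Fin n → ℂ)} [hρ : ρ.IsIrreducible]
    (hreal : ∀ g, (ρ.character g).im = 0) (α : G ≃* G) (hα : ¬ ∀ g, ρ.character (α g) = ρ.character g) (E : Matrix (Fin n) (Fin n) ℂ) :
    ∑ g : G, mat ρ (α g) * E * (mat ρ g).transpose = 0 := by
  set Z := ∑ g : G, mat ρ (α g) * E * (mat ρ g).transpose with hZ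
  have hinv : ∀ m : G, mat ρ (α m) * Z * (mat ρ m).transpose = Z := by
    intro m
    rw [hZ, Matrix.mul_sum, Matrix.sum_mul]
    refine Fintype.sum_equiv (Equiv.mulLeft m) _ _ fun g => ?_
    rw [Equiv.coe_mulLeft, map_mul, mat_mul, mat_mul, Matrix.transpose_mul]
    simp only [Matrix.mul_assoc]
  obtain ⟨X, hX, hX0⟩ := exists_inv hreal
  obtain ⟨u, hu⟩ := isUnit_of_isInv hX hX0
  let Y : Matrix (Fin n) (Fin n) ℂ := (u⁻¹ : (Matrix (Fin n) (Fin n) ℂ)ˣ)
  have hXY : X * Y = 1 := by rw [← hu]; exact u.mul_inv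
  have hYX : Y * X = 1 := by rw [← hu]; exact u.inv_mul
  -- W intertwines
  set W := Z * Y with hW
  have hint : ∀ m : G, mat ρ (α m) * W = W * mat ρ m := by
    intro m
    have h1 : (mat ρ m).transpose * Y = Y * mat ρ m⁻¹ := by
      have h2 := hX m
      have h3 : X * (mat ρ m).transpose = mat ρ m⁻¹ * X := by
        calc X * (mat ρ m).transpose = (mat ρ m⁻¹ * mat ρ m) * X * (mat ρ m).transpose := by rw [mat_inv_mul, Matrix.one_mul]
          _ = mat ρ m⁻¹ * (mat ρ m * X * (mat ρ m).transpose) := by simp only [Matrix.mul_assoc]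
          _ = mat ρ m⁻¹ * X := by rw [h2]
      calc (mat ρ m).transpose * Y = Y * (X * (mat ρ m).transpose) * Y := by
            rw [← Matrix.mul_assoc Y X, hYX, Matrix.one_mul]
        _ = Y * mat ρ m⁻¹ := by rw [h3, Matrix.mul_assoc, Matrix.mul_assoc, hXY, Matrix.mul_one]
    have h2 := hinv m
    calc mat ρ (α m) * W = mat ρ (α m) * Z * Y := by rw [hW, Matrix.mul_assoc]
      _ = mat ρ (α m) * Z * ((mat ρ m).transpose * (mat ρ m⁻¹).transpose) * Y := by
          rw [← Matrix.transpose_mul, mat_inv_mul, Matrix.transpose_one, Matrix.mul_one]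
      _ = (mat ρ (α m) * Z * (mat ρ m).transpose) * ((mat ρ m⁻¹).transpose * Y) := by simp only [Matrix.mul_assoc]
      _ = Z * ((mat ρ m⁻¹).transpose * Y) := by rw [h2]
      _ = W * mat ρ m := by
          have h3 : (mat ρ m⁻¹).transpose * Y = Y * mat ρ m := by
            have h4 := hX m⁻¹
            have h5 : X * (mat ρ m⁻¹).transpose = mat ρ m * X := by
              calc X * (mat ρ m⁻¹).transpose = (mat ρ m * mat ρ m⁻¹) * X * (mat ρ m⁻¹).transpose := by rw [mat_mul_inv, Matrix.one_mul]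
                _ = mat ρ m * (mat ρ m⁻¹ * X * (mat ρ m⁻¹).transpose) := by simp only [Matrix.mul_assoc]
                _ = mat ρ m * X := by rw [h4]
            calc (mat ρ m⁻¹).transpose * Y = Y * (X * (mat ρ m⁻¹).transpose) * Y := by
                  rw [← Matrix.mul_assoc Y X, hYX, Matrix.one_mul]
              _ = Y * mat ρ m := by rw [h5, Matrix.mul_assoc, Matrix.mul_assoc, hXY, Matrix.mul_one]
          rw [h3, ← Matrix.mul_assoc]
  have hW0 : W = 0 := by
    by_contra hne
    let S : Subrepresentation ρ := ⟨LinearMap.range (Matrix.toLin' W), by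
      rintro g _ ⟨w, rfl⟩
      refine ⟨Matrix.toLin' (mat ρ (α.symm g)) w, ?_⟩
      have h1 := hint (α.symm g)
      rw [MulEquiv.apply_symm_apply] at h1
      rw [← toLin_mat ρ g, ← LinearMap.comp_apply, ← LinearMap.comp_apply, ← Matrix.toLin'_mul,
        ← Matrix.toLin'_mul, h1]⟩
    have hS : S ≠ ⊥ := by
      intro hS
      apply hne
      have h1 : LinearMap.range (Matrix.toLin' W) = ⊥ := congrArg Subrepresentation.toSubmodule hS
      rw [LinearMap.range_eq_bot] at h1
      exact (Matrix.toLin'.map_eq_zero_iff).1 h1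
    have hS' : S = ⊤ := (IsSimpleOrder.eq_bot_or_eq_top S).resolve_left hS
    have h2 : LinearMap.range (Matrix.toLin' W) = ⊤ := congrArg Subrepresentation.toSubmodule hS'
    have hWu : IsUnit W := by
      rw [← Matrix.isUnit_toLin'_iff]
      exact (LinearMap.isUnit_iff_range_eq_top _).2 h2
    obtain ⟨v, hv⟩ := hWu
    apply hα
    intro g
    have h3 := hint g
    have h4 : mat ρ (α g) = W * mat ρ g * ((v⁻¹ : (Matrix (Fin n) (Fin n) ℂ)ˣ) : Matrix (Fin n) (Fin n) ℂ) := by
      rw [← h3, Matrix.mul_assoc, ← hv, Units.mul_inv, Matrix.mul_one]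
    rw [← trace_mat, ← trace_mat, h4, Matrix.mul_assoc, Matrix.trace_mul_comm, Matrix.mul_assoc, ← hv, Units.inv_mul, Matrix.mul_one]
  have : Z = W * X := by rw [hW, Matrix.mul_assoc, hYX, Matrix.mul_one]
  rw [this, hW0, Matrix.zero_mul]

section Ind
variable {G : Type u} [Group G] [Fintype G] {I : Subgroup G} [Fintype I]

theorem fs_ind_eq (ψ : I → ℂ) : fsInd (indFun I ψ) = (Nat.card I : ℂ)⁻¹ * ∑ g : G, extendByZero I ψ (g * g) := by
  have hG : (Nat.card G : ℂ) ≠ 0 := by exact_mod_cast Nat.card_pos.ne'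
  rw [fsInd_eq]
  simp only [ind_apply]
  rw [← Finset.mul_sum, Finset.sum_comm]
  have h1 : ∀ x : G, ∑ g : G, extendByZero I ψ (x⁻¹ * (g * g) * x) = ∑ g : G, extendByZero I ψ (g * g) := by
    intro x
    refine Fintype.sum_equiv ((MulAut.conj x⁻¹).toEquiv) _ _ fun g => ?_
    congr 1
    change x⁻¹ * (g * g) * x = (x⁻¹ * g * x⁻¹⁻¹) * (x⁻¹ * g * x⁻¹⁻¹)
    group
  rw [Finset.sum_congr rfl (fun x _ => h1 x), Finset.sum_const, Finset.card_univ, nsmul_eq_mul, ← Nat.card_eq_fintype_card]
  field_simp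

variable {N : Subgroup G} [Fintype N] (hN : N.Normal) (hNI : N ≤ I) {φ : N → ℂ} (hφ : IsIrrCharacter N φ)
  (hI : ∀ g, g ∈ I ↔ cj hN g φ = φ) {ψ : I → ℂ} (hψ : IsIrrCharacter I ψ) (hψN : ∀ n : N, ψ ⟨n, hNI n.2⟩ = φ n)
  (hreal : ∀ n, (φ n).im = 0)

include hN hφ hI hψ hψN hreal in
theorem coset_sum {g : G} (hg : g ∉ I) : ∑ n : N, extendByZero I ψ ((g * n) * (g * n)) = 0 := by
  classical
  have hform : ∀ n : N, (g * n) * (g * n) = (g * g) * ((g⁻¹ * n * g) * n) := by intro n; group
  have hcn : ∀ n : N, g⁻¹ * (n : G) * g ∈ N := fun n => by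
    have := hN.conj_mem n n.2 g⁻¹
    rwa [inv_inv] at this
  by_cases hg2 : g * g ∈ I
  · obtain ⟨d, σ, hσ, rfl⟩ := hψ
    let ρ : Representation ℂ N (Fin d → ℂ) := σ.comp (Subgroup.inclusion hNI)
    have hρc : ρ.character = φ := by
      funext n
      rw [← hψN]
      rfl
    haveI : ρ.IsIrreducible := CfsgLib.Extend.isIrreducible_of_char ρ (by rw [hρc]; exact hφ)
    let α : N ≃* N := (MulAut.conjNormal g⁻¹ : MulAut N)
    have hα : ∀ n : N, ((α n : N) : G) = g⁻¹ * n * g := by
      intro n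
      change ((MulAut.conjNormal g⁻¹ : MulAut N) n : G) = _
      rw [MulAut.conjNormal_apply, inv_inv]
    have hαne : ¬ ∀ n, ρ.character (α n) = ρ.character n := by
      intro h
      apply hg
      rw [← Subgroup.inv_mem_iff, hI]
      funext n
      rw [cj_apply, ← hρc, ← h n]
      congr 1
    have hz := twisted_zero (ρ := ρ) (by rw [hρc]; exact hreal) α hαne
    have hprod : ∑ n : N, mat ρ (α n) * mat ρ n = 0 := by
      ext i j
      rw [Matrix.sum_apply, Matrix.zero_apply]
      simp only [Matrix.mul_apply]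
      rw [Finset.sum_comm]
      apply Finset.sum_eq_zero
      intro k _
      have h1 := congrFun (congrFun (hz (Matrix.single k j 1)) i) k
      rw [Matrix.sum_apply, Matrix.zero_apply] at h1
      rw [← h1]
      apply Finset.sum_congr rfl
      intro n _
      rw [Matrix.mul_apply, Finset.sum_eq_single j]
      · rw [Matrix.mul_apply, Finset.sum_eq_single k]
        · rw [Matrix.single_apply_same, mul_one, Matrix.transpose_apply]
        · intro b _ hb
          rw [Matrix.single_apply_of_row_ne (Ne.symm hb), mul_zero]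
        · intro h; exact absurd (Finset.mem_univ _) h
      · intro b _ hb
        rw [Matrix.mul_apply, Finset.sum_eq_zero, zero_mul]
        intro c _
        rw [Matrix.single_apply_of_col_ne _ _ (Ne.symm hb), mul_zero]
      · intro h; exact absurd (Finset.mem_univ _) h
    have hterm : ∀ n : N, extendByZero I σ.character ((g * n) * (g * n)) = (mat σ ⟨g * g, hg2⟩ * (mat ρ (α n) * mat ρ n)).trace := by
      intro n
      have h1 : (g * n) * (g * n) = ((⟨g * g, hg2⟩ * (Subgroup.inclusion hNI (α n) * Subgroup.inclusion hNI n) : I) : G) := by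
        rw [hform]
        change _ = g * g * (((α n : N) : G) * n)
        rw [hα]
      rw [h1, ext_coe, ← trace_mat, mat_mul, mat_mul]
      rfl
    rw [Finset.sum_congr rfl (fun n _ => hterm n), ← Matrix.trace_sum, ← Matrix.mul_sum, hprod, Matrix.mul_zero, Matrix.trace_zero]
  · apply Finset.sum_eq_zero
    intro n _
    apply ext_not_mem
    intro h
    apply hg2
    rw [hform] at h
    exact (I.mul_mem_cancel_right (hNI (N.mul_mem (hcn n) n.2))).1 h

include hN hφ hI hψ hψN hreal in
theorem fs_ind : fsInd (indFun I ψ) = fsInd ψ := by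
  classical
  have hI0 : (Nat.card N : ℂ) ≠ 0 := by exact_mod_cast Nat.card_pos.ne'
  rw [fs_ind_eq, fsInd_eq]
  congr 1
  let F : G → ℂ := fun g => if g ∈ I then 0 else extendByZero I ψ (g * g)
  have hF0 : ∑ g : G, F g = 0 := by
    have h1 : (Nat.card N : ℂ) * ∑ g : G, F g = ∑ g : G, ∑ n : N, F (g * n) := by
      rw [Finset.sum_comm]
      have : ∀ n : N, ∑ g : G, F (g * n) = ∑ g : G, F g := fun n => Fintype.sum_equiv (Equiv.mulRight (n : G)) _ _ fun g => rfl
      rw [Finset.sum_congr rfl (fun n _ => this n), Finset.sum_const, Finset.card_univ, nsmul_eq_mul, Nat.card_eq_fintype_card]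
    have h2 : ∑ g : G, ∑ n : N, F (g * n) = 0 := by
      apply Finset.sum_eq_zero
      intro g _
      by_cases hg : g ∈ I
      · apply Finset.sum_eq_zero
        intro n _
        have : g * (n : G) ∈ I := I.mul_mem hg (hNI n.2)
        simp only [F, if_pos this]
      · rw [← coset_sum hN hNI hφ hI hψ hψN hreal hg]
        apply Finset.sum_congr rfl
        intro n _
        have : ¬ g * (n : G) ∈ I := fun h => hg ((I.mul_mem_cancel_right (hNI n.2)).1 h)
        simp only [F, if_neg this]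
    rw [h2] at h1
    exact (mul_eq_zero.1 h1).resolve_left hI0
  have h3 : ∀ g : G, extendByZero I ψ (g * g) = F g + extendByZero I (fun i => ψ (i * i)) g := by
    intro g
    by_cases hg : g ∈ I
    · simp only [F, if_pos hg, zero_add]
      rw [ext_mem I _ hg, ext_mem I _ (I.mul_mem hg hg)]
      rfl
    · simp only [F, if_neg hg]
      rw [ext_not_mem I _ hg, add_zero]
  rw [Finset.sum_congr rfl (fun g _ => h3 g), Finset.sum_add_distrib, hF0, zero_add, sum_ext']

include hN hφ hI hψ hψN in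
theorem fs_tw (hfs : fsInd ψ = 1) {l : G →* ℂˣ} (hl : ∀ n ∈ N, l n = 1) (hlf : fsInd (fun g : G => (l g : ℂ)) = 1) :
    fsInd (indFun I (tw ψ l)) = 1 := by
  have hψr : ∀ g, (ψ g).im = 0 := (fs_ne_zero_iff hψ).1 (by rw [hfs]; exact one_ne_zero)
  have hlr : ∀ g : G, ((l g : ℂ)).im = 0 := (fs_ne_zero_iff (isIrrCharacter_hom l)).1 (by rw [hlf]; exact one_ne_zero)
  have hlsq : ∀ g : G, (l (g * g) : ℂ) = 1 := by
    intro g
    have h1 : ‖(l g : ℂ)‖ = 1 := by
      apply Complex.norm_eq_one_of_pow_eq_one (n := Nat.card G) _ Nat.card_pos.ne'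
      rw [← Units.val_pow_eq_pow_val, ← map_pow, pow_card_eq_one', map_one, Units.val_one]
    have h2 : (l g : ℂ) = ((l g : ℂ).re : ℂ) := Complex.ext rfl (by rw [hlr g]; simp)
    have h3 : |((l g : ℂ).re)| = 1 := by
      rw [h2, Complex.norm_real] at h1
      exact h1
    rw [map_mul, Units.val_mul, h2]
    have h4 : ((l g : ℂ).re) * ((l g : ℂ).re) = 1 := by
      rw [← abs_mul_abs_self, h3, mul_one]
    exact_mod_cast h4
  have hψN' : ∀ n : N, tw ψ l ⟨n, hNI n.2⟩ = φ n := by
    intro n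
    change ((l (n : G) : ℂˣ) : ℂ) * ψ ⟨n, hNI n.2⟩ = φ n
    rw [hl n n.2, Units.val_one, one_mul, hψN]
  rw [fs_ind hN hNI hφ hI (tw_irr hψ l) hψN' (fun n => by rw [← hψN]; exact hψr _), ← hfs, fsInd_eq, fsInd_eq]
  congr 1
  apply Finset.sum_congr rfl
  intro g _
  change ((l ((g * g : I) : G) : ℂˣ) : ℂ) * ψ (g * g) = ψ (g * g)
  rw [Subgroup.coe_mul, hlsq, one_mul]

end Ind

end CfsgLib.MinN19
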