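import Mathlib
import Cfsg.Agent.EqBase
import Cfsg.Agent.LibMinNB19

set_option autoImplicit false
set_option maxHeartbeats 400000
set_option linter.unusedSectionVars false

/-! Average degree of strongly real characters (helper19) -/

namespace CfsgLib.Acd19

open Cfsg CfsgLib.CharBasic CfsgLib.Clifford CfsgLib.Extend CfsgLib.CharIndA CfsgLib.CharNorm CfsgLib.FS CfsgLib.MinN19 CfsgLib.TwoDeg19
open scoped ComplexConjugate

universe u v w

theorem sum_hom_eq_zero {A : Type u} [Group A] [Fintype A] {κ : A →* ℂˣ} (h : ∃ a, κ a ≠ 1) : ∑ a : A, (κ a : ℂ) = 0 := by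
  obtain ⟨b, hb⟩ := h
  have h1 : ∑ a : A, (κ a : ℂ) = (κ b : ℂ) * ∑ a : A, (κ a : ℂ) := by
    rw [Finset.mul_sum, ← Equiv.sum_comp (Equiv.mulLeft b)]
    apply Finset.sum_congr rfl
    intro a _
    rw [Equiv.coe_mulLeft, map_mul, Units.val_mul]
  have h2 := mul_left_eq_self₀.1 h1.symm
  rcases h2 with h2 | h2
  · exact absurd (Units.ext h2) hb
  · exact h2

section FS
variable {G : Type u} [Group G] [Fintype G] {M : Subgroup G} [Fintype M] {N : Subgroup G} [Fintype N] (hN : N.Normal)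
  (hNM : N ≤ M) {lam : N →* ℂˣ} (hM : ∀ g, g ∈ M ↔ ∀ n : N, lam ⟨g * n * g⁻¹, hN.conj_mem n n.2 g⟩ = lam n)
  {z : G} (hz : z * z = 1) (hzM : ∀ m ∈ M, z * m * z ∈ M) (μ : M →* ℂˣ) (hμN : ∀ n : N, μ ⟨n, hNM n.2⟩ = lam n)
  (hμz : ∀ m (hm : m ∈ M), μ ⟨z * m * z, hzM m hm⟩ * μ ⟨m, hm⟩ = 1)

include hN hM hz hzM hμN hμz in
theorem fs_one : fsInd (indFun M (fun m => (μ m : ℂ))) = 1 := by
  classical
  have hzinv : z⁻¹ = z := inv_eq_of_mul_eq_one_left hz
  have hM0 : (Nat.card M : ℂ) ≠ 0 := by exact_mod_cast Nat.card_pos.ne'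
  have hN0 : (Nat.card N : ℂ) ≠ 0 := by exact_mod_cast Nat.card_pos.ne'
  rw [fs_ind_eq]
  let F : G → ℂ := fun g => extendByZero M (fun m => (μ m : ℂ)) (g * g)
  have hcn : ∀ (g : G) (n : N), g⁻¹ * (n : G) * g ∈ N := fun g n => by
    have := hN.conj_mem n n.2 g⁻¹
    rwa [inv_inv] at this
  have hlz : ∀ n : N, lam ⟨z * n * z⁻¹, hN.conj_mem n n.2 z⟩ * lam n = 1 := by
    intro n
    have h1 := hμz n (hNM n.2)
    have h2 : (⟨z * n * z, hzM n (hNM n.2)⟩ : M) = ⟨(⟨z * n * z⁻¹, hN.conj_mem n n.2 z⟩ : N), hNM (hN.conj_mem n n.2 z)⟩ := by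
      apply Subtype.ext
      change z * (n : G) * z = z * n * z⁻¹
      rw [hzinv]
    rw [h2, hμN, hμN] at h1
    exact h1
  have hin : ∀ g : G, ∑ n : N, F (g * n) = if g * z ∈ M then (Nat.card N : ℂ) else 0 := by
    intro g
    split_ifs with hg
    · rw [Finset.sum_congr rfl (g := fun _ => (1 : ℂ)), Finset.sum_const, Finset.card_univ, nsmul_eq_mul, mul_one, Nat.card_eq_fintype_card]
      intro n _
      have hm' : g * n * z ∈ M := by
        have h1 : g * n * z = (g * z) * (z * n * z) := by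
          calc g * n * z = g * (z * z) * n * z := by rw [hz, mul_one]
            _ = _ := by group
        rw [h1]
        exact M.mul_mem hg (hzM _ (hNM n.2))
      have h1 : (g * n) * (g * n) = ((⟨g * n * z, hm'⟩ * ⟨z * (g * n * z) * z, hzM _ hm'⟩ : M) : G) := by
        change (g * n) * (g * n) = (g * n * z) * (z * (g * n * z) * z)
        calc (g * n) * (g * n) = (g * n) * (z * z) * (g * n) * (z * z) := by rw [hz, mul_one, mul_one]
          _ = _ := by group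
      change extendByZero M (fun m => (μ m : ℂ)) ((g * n) * (g * n)) = 1
      rw [h1, ext_coe, map_mul, mul_comm, hμz _ hm', Units.val_one]
    · by_cases hg2 : g * g ∈ M
      · let κ : N →* ℂˣ := (lam.comp (MulAut.conjNormal g⁻¹ : MulAut N).toMonoidHom) * lam
        have hκ : ∀ n : N, κ n = lam ⟨g⁻¹ * n * g, hcn g n⟩ * lam n := by
          intro n
          change lam ((MulAut.conjNormal g⁻¹ : MulAut N) n) * lam n = _
          congr 2
          apply Subtype.ext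
          rw [MulAut.conjNormal_apply, inv_inv]
        have hκ1 : ∃ n, κ n ≠ 1 := by
          by_contra hcon
          push Not at hcon
          apply hg
          rw [hM]
          intro n
          have h1 := hlz n
          have h2 := hcon ⟨g * (⟨z * n * z⁻¹, hN.conj_mem n n.2 z⟩ : N) * g⁻¹, hN.conj_mem _ (⟨z * n * z⁻¹, hN.conj_mem n n.2 z⟩ : N).2 g⟩
          rw [hκ] at h2
          have h3 : (⟨g⁻¹ * ((⟨g * (⟨z * n * z⁻¹, hN.conj_mem n n.2 z⟩ : N) * g⁻¹, hN.conj_mem _ (⟨z * n * z⁻¹, hN.conj_mem n n.2 z⟩ : N).2 g⟩ : N) : G) * g, hcn g _⟩ : N) =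
              ⟨z * n * z⁻¹, hN.conj_mem n n.2 z⟩ := by
            apply Subtype.ext
            change g⁻¹ * (g * (z * n * z⁻¹) * g⁻¹) * g = z * n * z⁻¹
            group
          rw [h3] at h2
          have h4 : (⟨g * z * n * (g * z)⁻¹, hN.conj_mem n n.2 (g * z)⟩ : N) =
              ⟨g * (⟨z * n * z⁻¹, hN.conj_mem n n.2 z⟩ : N) * g⁻¹, hN.conj_mem _ (⟨z * n * z⁻¹, hN.conj_mem n n.2 z⟩ : N).2 g⟩ := by
            apply Subtype.ext
            change g * z * n * (g * z)⁻¹ = g * (z * n * z⁻¹) * g⁻¹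
            group
          rw [h4]
          exact mul_left_cancel (h2.trans h1.symm)
        have hterm : ∀ n : N, F (g * n) = (μ ⟨g * g, hg2⟩ : ℂ) * (κ n : ℂ) := by
          intro n
          have h1 : (g * n) * (g * n) = ((⟨g * g, hg2⟩ * (⟨(⟨g⁻¹ * n * g, hcn g n⟩ : N), hNM (hcn g n)⟩ * ⟨n, hNM n.2⟩) : M) : G) := by
            change (g * n) * (g * n) = (g * g) * ((g⁻¹ * n * g) * n)
            group
          change extendByZero M (fun m => (μ m : ℂ)) ((g * n) * (g * n)) = _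
          rw [h1, ext_coe, map_mul, map_mul, hμN, hμN, hκ, Units.val_mul, Units.val_mul]
        rw [Finset.sum_congr rfl (fun n _ => hterm n), ← Finset.mul_sum, sum_hom_eq_zero hκ1, mul_zero]
      · apply Finset.sum_eq_zero
        intro n _
        change extendByZero M (fun m => (μ m : ℂ)) ((g * n) * (g * n)) = 0
        apply ext_not_mem
        intro h
        apply hg2
        have h1 : (g * n) * (g * n) = (g * g) * ((g⁻¹ * n * g) * n) := by group
        rw [h1] at h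
        exact (M.mul_mem_cancel_right (hNM (N.mul_mem (hcn g n) n.2))).1 h
  have h1 : (Nat.card N : ℂ) * ∑ g : G, F g = ∑ g : G, ∑ n : N, F (g * n) := by
    rw [Finset.sum_comm]
    have : ∀ n : N, ∑ g : G, F (g * n) = ∑ g : G, F g := fun n => Fintype.sum_equiv (Equiv.mulRight (n : G)) _ _ fun g => rfl
    rw [Finset.sum_congr rfl (fun n _ => this n), Finset.sum_const, Finset.card_univ, nsmul_eq_mul, Nat.card_eq_fintype_card]
  rw [Finset.sum_congr rfl (fun g _ => hin g), ← Finset.sum_filter, Finset.sum_const, nsmul_eq_mul] at h1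
  have h2 : (Finset.univ.filter (fun g : G => g * z ∈ M)).card = Nat.card M := by
    rw [Nat.card_eq_fintype_card, ← Fintype.card_subtype]
    apply Fintype.card_congr
    exact { toFun := fun g => ⟨g.1 * z, g.2⟩
            invFun := fun m => ⟨m.1 * z, by rw [mul_assoc, hz, mul_one]; exact m.2⟩
            left_inv := fun g => Subtype.ext (by change g.1 * z * z = g.1; rw [mul_assoc, hz, mul_one])
            right_inv := fun m => Subtype.ext (by change m.1 * z * z = m.1; rw [mul_assoc, hz, mul_one]) }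
  rw [h2, mul_comm] at h1
  have h3 : ∑ g : G, F g = (Nat.card M : ℂ) := mul_right_cancel₀ hN0 h1
  change (Nat.card M : ℂ)⁻¹ * ∑ g : G, F g = 1
  rw [h3, inv_mul_cancel₀ hM0]

end FS

section Main
variable {G : Type u} [Group G] [Finite G] {N P : Subgroup G} (hN : N.Normal) {q : ℕ} [Fact q.Prime] (hq : q ≠ 2)
  (hNel : Cfsg.IsElementaryAbelian q N) (hP : IsPGroup 2 P) (hP1 : P ≠ ⊥) (hdisj : N ⊓ P = ⊥) (hprod : N ⊔ P = ⊤)
  (hmin : N ≠ ⊥ ∧ ∀ M : Subgroup G, M.Normal → M ≠ ⊥ → N ≤ M)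

include hN hprod in
theorem dec (g : G) : ∃ n ∈ N, ∃ x ∈ P, g = n * x := by
  haveI := hN
  have h1 : g ∈ N ⊔ P := by rw [hprod]; exact Subgroup.mem_top _
  obtain ⟨n, hn, x, hx, h⟩ := Subgroup.mem_sup_of_normal_left.1 h1
  exact ⟨n, hn, x, hx, h.symm⟩

include hN hq hNel hP hP1 hdisj hprod hmin in
/-- a central involution of `P` inverts `N` -/
theorem exists_z : ∃ z ∈ P, z * z = 1 ∧ z ≠ 1 ∧ (∀ x ∈ P, z * x = x * z) ∧ ∀ n ∈ N, z * n * z⁻¹ = n⁻¹ := by
  haveI : Nontrivial P := (Subgroup.nontrivial_iff_ne_bot P).2 hP1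
  haveI : Fact (Nat.Prime 2) := ⟨Nat.prime_two⟩
  have hc : Nontrivial (Subgroup.center P) := hP.center_nontrivial
  have h2 : 2 ∣ Nat.card (Subgroup.center P) := by
    obtain ⟨k, hk⟩ := IsPGroup.iff_card.1 (hP.to_subgroup (Subgroup.center P))
    rw [hk]
    apply dvd_pow_self
    rintro rfl
    rw [pow_zero] at hk
    exact (Finite.one_lt_card_iff_nontrivial.2 hc).ne' hk
  obtain ⟨z, hz⟩ := exists_prime_orderOf_dvd_card' 2 h2
  have hz2 : ((z : P) : G) * ((z : P) : G) = 1 := by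
    have h3 : z ^ 2 = 1 := by rw [← hz]; exact pow_orderOf_eq_one z
    rw [pow_two] at h3
    have h4 := congrArg (fun y : Subgroup.center P => ((y : P) : G)) h3
    exact h4
  have hz1 : ((z : P) : G) ≠ 1 := by
    intro h
    have : z = 1 := Subtype.ext (Subtype.ext h)
    rw [this, orderOf_one] at hz
    exact absurd hz (by norm_num)
  have hzc : ∀ x ∈ P, ((z : P) : G) * x = x * ((z : P) : G) := by
    intro x hx
    have := Subgroup.mem_center_iff.1 z.2 ⟨x, hx⟩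
    exact (congrArg Subtype.val this).symm
  set w : G := ((z : P) : G) with hw
  have hwP : w ∈ P := (z : P).2
  refine ⟨w, hwP, hz2, hz1, hzc, ?_⟩
  have hNab : ∀ a ∈ N, ∀ b ∈ N, a * b = b * a := by
    intro a ha b hb
    have := hNel.1.is_comm.comm (⟨a, ha⟩ : N) ⟨b, hb⟩
    exact congrArg Subtype.val this
  have hwinv : w⁻¹ = w := inv_eq_of_mul_eq_one_left hz2
  -- the fixed points
  let C : Subgroup G := N ⊓ Subgroup.centralizer {w}
  have hCn : C.Normal := by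
    refine ⟨fun c hc g => ?_⟩
    obtain ⟨n, hn, x, hx, rfl⟩ := dec hN hprod g
    have h3 : x * c * x⁻¹ ∈ N := hN.conj_mem c hc.1 x
    have h4 : n * x * c * (n * x)⁻¹ = x * c * x⁻¹ := by
      have h5 : n * x * c * (n * x)⁻¹ = n * (x * c * x⁻¹) * n⁻¹ := by group
      rw [h5, hNab n hn _ h3, mul_inv_cancel_right]
    rw [h4]
    refine ⟨h3, ?_⟩
    change x * c * x⁻¹ ∈ Subgroup.centralizer {w}
    rw [Subgroup.mem_centralizer_iff]
    rintro _ rfl
    have h6 : w * c = c * w := (Subgroup.mem_centralizer_iff.1 hc.2) w rfl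
    have h7 := hzc x hx
    have h8 : w * x⁻¹ = x⁻¹ * w := hzc x⁻¹ (P.inv_mem hx)
    calc w * (x * c * x⁻¹) = (w * x) * c * x⁻¹ := by group
      _ = x * (w * c) * x⁻¹ := by rw [h7]; group
      _ = x * c * (w * x⁻¹) := by rw [h6]; group
      _ = x * c * x⁻¹ * w := by rw [h8]; group
  have hC1 : C = ⊥ := by
    by_contra hne
    have h3 := hmin.2 C hCn hne
    -- w is central
    have hwZ : ∀ g : G, g * w = w * g := by
      intro g
      obtain ⟨n, hn, x, hx, rfl⟩ := dec hN hprod g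
      have h4 : w * n = n * w := (Subgroup.mem_centralizer_iff.1 (h3 hn).2) w rfl
      rw [mul_assoc, ← hzc x hx, ← mul_assoc, ← h4, mul_assoc]
    have h4 : (Subgroup.zpowers w).Normal := by
      refine ⟨fun y hy g => ?_⟩
      obtain ⟨i, rfl⟩ := hy
      have : Commute g w := hwZ g
      rw [(this.zpow_right i).eq, mul_inv_cancel_right]
      exact Subgroup.zpow_mem_zpowers w i
    have h5 : Subgroup.zpowers w ≠ ⊥ := by
      rw [Ne, Subgroup.zpowers_eq_bot]; exact hz1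
    have h6 := hmin.2 _ h4 h5
    apply hmin.1
    have h7 : Subgroup.zpowers w ≤ P := by rw [Subgroup.zpowers_le]; exact hwP
    rw [eq_bot_iff, ← hdisj]
    exact le_inf le_rfl (h6.trans h7)
  intro n hn
  have h3 : n * (w * n * w⁻¹) ∈ C := by
    have h4 : w * n * w⁻¹ ∈ N := hN.conj_mem n hn w
    refine ⟨N.mul_mem hn h4, ?_⟩
    change n * (w * n * w⁻¹) ∈ Subgroup.centralizer {w}
    rw [Subgroup.mem_centralizer_iff]
    rintro _ rfl
    rw [hwinv]
    rw [hwinv] at h4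
    calc w * (n * (w * n * w)) = (w * n * w) * n * w := by
          calc w * (n * (w * n * w)) = (w * n * w) * (n * w) := by group
            _ = _ := by group
      _ = n * (w * n * w) * w := by rw [hNab _ h4 n hn]
  rw [hC1, Subgroup.mem_bot] at h3
  exact (inv_eq_of_mul_eq_one_right h3).symm

end Main

section Asm
variable {G : Type u} [Group G] [Fintype G] {M : Subgroup G} [Fintype M] {N : Subgroup G} [Fintype N] (hN : N.Normal)
  (hNM : N ≤ M) {lam : N →* ℂˣ} (hM : ∀ g, g ∈ M ↔ ∀ n : N, lam ⟨g * n * g⁻¹, hN.conj_mem n n.2 g⟩ = lam n)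

include hM in
theorem hM' (g : G) : g ∈ M ↔ cj hN g (fun n => (lam n : ℂ)) = fun n => (lam n : ℂ) := by
  rw [hM]
  constructor
  · intro h
    funext n
    rw [cj_apply, h]
  · intro h n
    have := congrFun h n
    rw [cj_apply] at this
    exact Units.ext this

theorem inner_ne {μ : M →* ℂˣ} (hμN : ∀ n : N, μ ⟨n, hNM n.2⟩ = lam n) :
    classInner (resT hNM (fun m => (μ m : ℂ))) (fun n => (lam n : ℂ)) ≠ 0 := by
  have h1 : resT hNM (fun m => (μ m : ℂ)) = fun n => (lam n : ℂ) := by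
    funext n
    change (μ ⟨n, hNM n.2⟩ : ℂ) = _
    rw [hμN]
  rw [h1, irr_inner_self (isIrrCharacter_hom lam)]
  exact one_ne_zero

include hN hM in
theorem ind_irr_hom {μ : M →* ℂˣ} (hμN : ∀ n : N, μ ⟨n, hNM n.2⟩ = lam n) : IsIrrCharacter G (indFun M (fun m => (μ m : ℂ))) :=
  (clifford_corr hN hNM (isIrrCharacter_hom lam) (hM' hN hM) (isIrrCharacter_hom μ) (inner_ne hNM hμN)).1

include hN hM in
theorem ind_inj_hom {μ μ' : M →* ℂˣ} (hμN : ∀ n : N, μ ⟨n, hNM n.2⟩ = lam n) (hμN' : ∀ n : N, μ' ⟨n, hNM n.2⟩ = lam n)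
    (h : indFun M (fun m => (μ m : ℂ)) = indFun M (fun m => (μ' m : ℂ))) : μ = μ' :=
  hom_ext_fun (clifford_corr_inj hN hNM (isIrrCharacter_hom lam) (hM' hN hM) (isIrrCharacter_hom μ) (isIrrCharacter_hom μ')
    (inner_ne hNM hμN) (inner_ne hNM hμN') h)

include hN hM in
theorem ind_deg_hom {μ : M →* ℂˣ} (hμN : ∀ n : N, μ ⟨n, hNM n.2⟩ = lam n) : charDegree (indFun M (fun m => (μ m : ℂ))) = M.index := by
  have h5 := CfsgLib.CharInt.irr_one_eq_charDegree (ind_irr_hom hN hNM hM hμN)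
  rw [ind_one, map_one, Units.val_one, mul_one] at h5
  exact_mod_cast h5.symm

end Asm

theorem fs_hom {G : Type u} [Group G] [Fintype G] (l : G →* ℂˣ) : fsInd (fun g => (l g : ℂ)) = 1 ↔ ∀ g, l g * l g = 1 := by
  rw [fsInd_eq]
  have h0 : (Nat.card G : ℂ) ≠ 0 := by exact_mod_cast Nat.card_pos.ne'
  constructor
  · intro h
    by_contra hcon
    push Not at hcon
    obtain ⟨g, hg⟩ := hcon
    have h1 : ∑ g : G, ((l * l) g : ℂ) = 0 := sum_hom_eq_zero ⟨g, hg⟩
    have h2 : ∑ g : G, (l (g * g) : ℂ) = 0 := by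
      rw [← h1]
      apply Finset.sum_congr rfl
      intro g _
      rw [map_mul]; rfl
    rw [h2, mul_zero] at h
    exact zero_ne_one h
  · intro h
    have h1 : ∀ g : G, (l (g * g) : ℂ) = 1 := by
      intro g
      rw [map_mul, h, Units.val_one]
    rw [Finset.sum_congr rfl (fun g _ => h1 g), Finset.sum_const, Finset.card_univ, nsmul_eq_mul, mul_one, ← Nat.card_eq_fintype_card, inv_mul_cancel₀ h0]

section Fin
variable {G : Type u} [Group G] [Finite G] {N P : Subgroup G} (hN : N.Normal) {q : ℕ} [Fact q.Prime] (hq : q ≠ 2)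
  (hNel : Cfsg.IsElementaryAbelian q N) (hP : IsPGroup 2 P) (hP1 : P ≠ ⊥) (hdisj : N ⊓ P = ⊥) (hprod : N ⊔ P = ⊤)
  (hmin : N ≠ ⊥ ∧ ∀ M : Subgroup G, M.Normal → M ≠ ⊥ → N ≤ M)

include hN hq hNel hP hP1 hdisj hprod hmin in
theorem main : 4 * Nat.card {χ : IrrCharacter G // (charDegree (χ : G → ℂ) = 1 ∨ 2 ∣ charDegree (χ : G → ℂ)) ∧ fsInd (χ : G → ℂ) = 1} ≤
    3 * (∑ᶠ χ : {χ : IrrCharacter G // (charDegree (χ : G → ℂ) = 1 ∨ 2 ∣ charDegree (χ : G → ℂ)) ∧ fsInd (χ : G → ℂ) = 1}, charDegree (χ.1 : G → ℂ)) := by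
  classical
  letI := Fintype.ofFinite G
  letI := Fintype.ofFinite N
  haveI := hN
  have hqp : q.Prime := Fact.out
  obtain ⟨z, hzP, hz, hz1, hzc, hzN⟩ := exists_z hN hq hNel hP hP1 hdisj hprod hmin
  have hzinv : z⁻¹ = z := inv_eq_of_mul_eq_one_left hz
  have hNab : ∀ a b : N, a * b = b * a := fun a b => hNel.1.is_comm.comm a b
  have hNexp : ∀ n : N, n ^ q = 1 := fun n => Subtype.ext (hNel.2 n n.2)
  -- cardinalities
  have hNidx : N.index = Nat.card P := by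
    have h1 : Subgroup.IsComplement' N P := by
      apply Subgroup.isComplement'_of_disjoint_and_mul_eq_univ
      · rw [disjoint_iff]; exact hdisj
      · rw [Set.eq_univ_iff_forall]
        intro g
        obtain ⟨n, hn, x, hx, h⟩ := dec hN hprod g
        exact ⟨n, hn, x, hx, h.symm⟩
    exact h1.symm.index_eq_card
  obtain ⟨k, hk⟩ := IsPGroup.iff_card.1 hP
  obtain ⟨j, hj⟩ : ∃ j, Nat.card N = q ^ j := by
    apply IsPGroup.iff_card.1
    intro n
    exact ⟨1, by rw [pow_one]; exact hNexp n⟩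
  have hcq : q.Coprime (Nat.card P) := by
    rw [hk]
    apply Nat.Coprime.pow_right
    exact (Nat.coprime_primes hqp Nat.prime_two).2 hq
  have hcop : (Nat.card N).Coprime N.index := by
    rw [hNidx, hj]
    exact hcq.pow_left j
  obtain ⟨n0, hn01⟩ := N.ne_bot_iff_exists_ne_one.1 hmin.1
  obtain ⟨lam, hlam⟩ := exists_hom_ne_one hNab hn01
  set M := Tl hN lam with hMdef
  letI := Fintype.ofFinite M
  have hNM : N ≤ M := le_Tl hN lam
  have hM : ∀ g, g ∈ M ↔ ∀ n : N, lam ⟨g * n * g⁻¹, hN.conj_mem n n.2 g⟩ = lam n := fun g => mem_Tl hN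
  have hlamq : ∀ n : N, lam n ^ q = 1 := fun n => by rw [← map_pow, hNexp, map_one]
  have hzlam : ∀ n : N, lam ⟨z * n * z⁻¹, hN.conj_mem n n.2 z⟩ = (lam n)⁻¹ := by
    intro n
    have h1 : (⟨z * n * z⁻¹, hN.conj_mem n n.2 z⟩ : N) = n⁻¹ := Subtype.ext (hzN n n.2)
    rw [h1, map_inv]
  have hzM0 : z ∉ M := by
    intro h
    rw [hM] at h
    have h1 := h n0
    rw [hzlam] at h1
    have h2 : lam n0 ^ 2 = 1 := by
      rw [pow_two]
      nth_rw 1 [← h1]
      exact inv_mul_cancel _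
    have h3 : orderOf (lam n0) ∣ Nat.gcd 2 q := Nat.dvd_gcd (orderOf_dvd_of_pow_eq_one h2) (orderOf_dvd_of_pow_eq_one (hlamq n0))
    rw [(Nat.coprime_primes Nat.prime_two hqp).2 (Ne.symm hq), Nat.dvd_one, orderOf_eq_one_iff] at h3
    exact hlam h3
  have hzM : ∀ m ∈ M, z * m * z ∈ M := by
    intro m hm
    rw [hM] at hm ⊢
    intro n
    have h1 : (⟨z * m * z * n * (z * m * z)⁻¹, hN.conj_mem n n.2 (z * m * z)⟩ : N) =
        ⟨z * (⟨m * (⟨z * n * z⁻¹, hN.conj_mem n n.2 z⟩ : N) * m⁻¹, hN.conj_mem _ (⟨z * n * z⁻¹, hN.conj_mem n n.2 z⟩ : N).2 m⟩ : N) * z⁻¹,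
          hN.conj_mem _ (⟨m * (⟨z * n * z⁻¹, hN.conj_mem n n.2 z⟩ : N) * m⁻¹, hN.conj_mem _ (⟨z * n * z⁻¹, hN.conj_mem n n.2 z⟩ : N).2 m⟩ : N).2 z⟩ := by
      apply Subtype.ext
      change z * m * z * n * (z * m * z)⁻¹ = z * (m * (z * n * z⁻¹) * m⁻¹) * z⁻¹
      group
    rw [h1, hzlam, hm, hzlam, inv_inv]
  -- index of M
  have hM1 : M.index ≠ 1 := by
    intro h
    rw [Subgroup.index_eq_one] at h
    rw [h] at hzM0
    exact hzM0 (Subgroup.mem_top z)
  have hMd : M.index ∣ 2 ^ k := by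
    rw [← hk, ← hNidx]
    exact Subgroup.index_dvd_of_le hNM
  have hMe : 2 ∣ M.index := by
    obtain ⟨i, hi, hi2⟩ := (Nat.dvd_prime_pow Nat.prime_two).1 hMd
    rw [hi2]
    apply dvd_pow_self
    rintro rfl
    exact hM1 hi2
  have hM2 : 2 ≤ M.index := Nat.le_of_dvd (Nat.pos_of_ne_zero Subgroup.index_ne_zero_of_finite) hMe
  -- the canonical extension
  obtain ⟨μ0, hμ0⟩ := exists_ext hN hcop lam
  obtain ⟨a, ha1, ha2⟩ : ∃ a : ℕ, a ≡ 1 [MOD q] ∧ a ≡ 0 [MOD Nat.card P] := ⟨_, (Nat.chineseRemainder hcq 1 0).2.1, (Nat.chineseRemainder hcq 1 0).2.2⟩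
  have hlama : ∀ n : N, lam n ^ a = lam n := by
    intro n
    have h1 : a ≡ 1 [MOD orderOf (lam n)] := ha1.of_dvd (orderOf_dvd_of_pow_eq_one (hlamq n))
    have h2 := pow_eq_pow_iff_modEq.2 h1
    rw [h2, pow_one]
  have hPa : ∀ x ∈ P, x ^ a = 1 := by
    intro x hx
    have h1 : Nat.card P ∣ a := (Nat.modEq_zero_iff_dvd).1 ha2
    have h2 : (⟨x, hx⟩ : P) ^ a = 1 := by
      obtain ⟨c, rfl⟩ := h1
      rw [pow_mul, pow_card_eq_one', one_pow]
    exact congrArg Subtype.val h2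
  -- the set of real characters of M/N
  let Ψ := {ψ : M →* ℂˣ // (∀ m, ψ m * ψ m = 1) ∧ ∀ n : N, ψ ⟨n, hNM n.2⟩ = 1}
  haveI : Finite (M →* ℂˣ) := CfsgLib.Resid19.finite_hom
  haveI : Finite (G →* ℂˣ) := CfsgLib.Resid19.finite_hom
  letI : Fintype Ψ := Fintype.ofFinite Ψ
  let mu : Ψ → (M →* ℂˣ) := fun ψ => μ0 ^ a * ψ.1
  have hmuN : ∀ (ψ : Ψ) (n : N), mu ψ ⟨n, hNM n.2⟩ = lam n := by
    intro ψ n
    change μ0 ⟨n, hNM n.2⟩ ^ a * ψ.1 ⟨n, hNM n.2⟩ = lam n
    rw [ψ.2.2, mul_one]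
    have : μ0 ⟨n, hNM n.2⟩ = lam n := hμ0 n
    rw [this, hlama]
  have hmuz : ∀ (ψ : Ψ) (m : G) (hm : m ∈ M), mu ψ ⟨z * m * z, hzM m hm⟩ * mu ψ ⟨m, hm⟩ = 1 := by
    intro ψ m hm
    obtain ⟨n, hn, x, hx, h⟩ := dec hN hprod m
    have hxM : x ∈ M := by
      have : x = n⁻¹ * m := by rw [h]; group
      rw [this]
      exact M.mul_mem (M.inv_mem (hNM hn)) hm
    have h1 : (⟨m, hm⟩ : M) = ⟨(⟨n, hn⟩ : N), hNM hn⟩ * ⟨x, hxM⟩ := Subtype.ext h
    have h2 : (⟨z * m * z, hzM m hm⟩ : M) = ⟨((⟨n, hn⟩ : N)⁻¹ : N), hNM (N.inv_mem hn)⟩ * ⟨x, hxM⟩ := by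
      apply Subtype.ext
      change z * m * z = n⁻¹ * x
      rw [h, ← hzN n hn]
      calc z * (n * x) * z = z * n * (x * z) := by group
        _ = z * n * (z * x) := by rw [hzc x hx]
        _ = z * n * z⁻¹ * x := by rw [hzinv]; group
    have h3 : mu ψ ⟨x, hxM⟩ * mu ψ ⟨x, hxM⟩ = 1 := by
      have h4 : mu ψ ⟨x, hxM⟩ = ψ.1 ⟨x, hxM⟩ := by
        change μ0 ⟨x, hxM⟩ ^ a * ψ.1 ⟨x, hxM⟩ = _
        have h5 : (⟨x, hxM⟩ : M) ^ a = 1 := Subtype.ext (hPa x hx)
        rw [← map_pow, h5, map_one, one_mul]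
      rw [h4, ψ.2.1]
    rw [h1, h2, map_mul, map_mul, hmuN, hmuN, map_inv]
    calc (lam ⟨n, hn⟩)⁻¹ * mu ψ ⟨x, hxM⟩ * (lam ⟨n, hn⟩ * mu ψ ⟨x, hxM⟩)
        = ((lam ⟨n, hn⟩)⁻¹ * lam ⟨n, hn⟩) * (mu ψ ⟨x, hxM⟩ * mu ψ ⟨x, hxM⟩) := by
          rw [mul_assoc, mul_assoc, mul_left_comm (mu ψ ⟨x, hxM⟩)]
      _ = 1 := by rw [h3, inv_mul_cancel, one_mul]
  let X := {χ : IrrCharacter G // (charDegree (χ : G → ℂ) = 1 ∨ 2 ∣ charDegree (χ : G → ℂ)) ∧ fsInd (χ : G → ℂ) = 1}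
  letI : Fintype X := Fintype.ofFinite X
  let J : Ψ → X := fun ψ => ⟨⟨indFun M (fun m => (mu ψ m : ℂ)), ind_irr_hom hN hNM hM (hmuN ψ)⟩,
    Or.inr (by change 2 ∣ charDegree (indFun M (fun m => (mu ψ m : ℂ))); rw [ind_deg_hom hN hNM hM (hmuN ψ)]; exact hMe),
    fs_one hN hNM hM hz hzM (mu ψ) (hmuN ψ) (hmuz ψ)⟩
  have hJ : Function.Injective J := by
    intro ψ ψ' h
    have h1 : indFun M (fun m => (mu ψ m : ℂ)) = indFun M (fun m => (mu ψ' m : ℂ)) :=
      congrArg (fun y : X => (y.1 : G → ℂ)) h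
    have h2 := ind_inj_hom hN hNM hM (hmuN ψ) (hmuN ψ') h1
    exact Subtype.ext (mul_left_cancel h2)
  have hJd : ∀ ψ, charDegree ((J ψ).1 : G → ℂ) = M.index := fun ψ => ind_deg_hom hN hNM hM (hmuN ψ)
  -- linear characters
  let L := {χ : X // charDegree (χ.1 : G → ℂ) = 1}
  have hl : ∀ χ : L, ∃ f : G →* ℂˣ, ∀ g, (χ.1.1 : G → ℂ) g = f g := fun χ =>
    exists_hom_of_linear (irr_isCharacter χ.1.1.2) (deg_one χ.1.1.2 χ.2)
  choose r hr using hl
  have hr2 : ∀ (χ : L) g, r χ g * r χ g = 1 := by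
    intro χ
    apply (fs_hom (r χ)).1
    have h1 : (fun g => (r χ g : ℂ)) = (χ.1.1 : G → ℂ) := funext fun g => (hr χ g).symm
    rw [h1]
    exact χ.1.2.2
  have hrN : ∀ (χ : L) (n : N), r χ (n : G) = 1 := by
    intro χ n
    have h2 : r χ n ^ 2 = 1 := by rw [pow_two]; exact hr2 χ n
    have h4 : r χ n ^ q = 1 := by
      rw [← map_pow, ← Subgroup.coe_pow, hNexp, Subgroup.coe_one, map_one]
    have h3 : orderOf (r χ n) ∣ Nat.gcd 2 q := Nat.dvd_gcd (orderOf_dvd_of_pow_eq_one h2) (orderOf_dvd_of_pow_eq_one h4)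
    rw [(Nat.coprime_primes Nat.prime_two hqp).2 (Ne.symm hq), Nat.dvd_one, orderOf_eq_one_iff] at h3
    exact h3
  have hL : Nat.card L ≤ M.index * Nat.card Ψ := by
    apply count_le M (fun χ : L => (⟨(r χ).comp M.subtype, fun m => hr2 χ m, fun n => hrN χ n⟩ : Ψ)) r
    · intro χ χ' h
      apply Subtype.ext; apply Subtype.ext; apply Subtype.ext
      funext g
      exact (hr χ g).trans ((congrArg (fun y : G →* ℂˣ => (y g : ℂ)) h).trans (hr χ' g).symm)
    · intro l l' h i hi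
      have := congrArg (fun y : Ψ => y.1 ⟨i, hi⟩) h
      exact this
  rw [finsum_eq_sum_of_fintype]
  have hkey : (0 : ℤ) ≤ ∑ χ : X, (3 * (charDegree (χ.1 : G → ℂ) : ℤ) - 4) := by
    rw [← Finset.sum_filter_add_sum_filter_not Finset.univ (fun χ : X => charDegree (χ.1 : G → ℂ) = 1)]
    have h1 : ∑ χ ∈ Finset.univ.filter (fun χ : X => charDegree (χ.1 : G → ℂ) = 1), (3 * (charDegree (χ.1 : G → ℂ) : ℤ) - 4) = - (Nat.card L : ℤ) := by
      rw [Finset.sum_congr rfl (g := fun _ => (-1 : ℤ)), Finset.sum_const, Nat.card_eq_fintype_card, Fintype.card_subtype]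
      · simp
      · intro χ hχ
        rw [(Finset.mem_filter.1 hχ).2]
        norm_num
    have h2 : (∑ χ ∈ Finset.univ.image J, (3 * (charDegree (χ.1 : G → ℂ) : ℤ) - 4)) ≤
        ∑ χ ∈ Finset.univ.filter (fun χ : X => ¬ charDegree (χ.1 : G → ℂ) = 1), (3 * (charDegree (χ.1 : G → ℂ) : ℤ) - 4) := by
      apply Finset.sum_le_sum_of_subset_of_nonneg
      · intro χ hχ
        obtain ⟨ψ, -, rfl⟩ := Finset.mem_image.1 hχ
        rw [Finset.mem_filter, hJd]
        exact ⟨Finset.mem_univ _, hM1⟩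
      · intro χ hχ _
        have h3 := (Finset.mem_filter.1 hχ).2
        have h4 : 2 ∣ charDegree (χ.1 : G → ℂ) := χ.2.1.resolve_left h3
        have h5 : charDegree (χ.1 : G → ℂ) ≠ 0 := by
          intro h
          have := CfsgLib.CharInt.irr_one_ne_zero χ.1.2
          rw [CfsgLib.CharInt.irr_one_eq_charDegree χ.1.2, h, Nat.cast_zero] at this
          exact this rfl
        have h6 : 2 ≤ charDegree (χ.1 : G → ℂ) := Nat.le_of_dvd (Nat.pos_of_ne_zero h5) h4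
        have h7 : (2 : ℤ) ≤ (charDegree (χ.1 : G → ℂ) : ℤ) := by exact_mod_cast h6
        linarith
    rw [Finset.sum_image (fun a _ b _ h => hJ h), Finset.sum_congr rfl (g := fun _ => (3 * (M.index : ℤ) - 4)) (fun ψ _ => by rw [hJd]),
      Finset.sum_const, Finset.card_univ, nsmul_eq_mul] at h2
    rw [h1]
    have h3 : (Nat.card L : ℤ) ≤ (M.index : ℤ) * (Fintype.card Ψ : ℤ) := by
      rw [← Nat.card_eq_fintype_card]
      exact_mod_cast hL
    have h4 : (2 : ℤ) ≤ (M.index : ℤ) := by exact_mod_cast hM2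
    have h5 : (0 : ℤ) ≤ (Fintype.card Ψ : ℤ) := Int.natCast_nonneg _
    nlinarith
  rw [Finset.sum_sub_distrib, ← Finset.mul_sum, Finset.sum_const, Finset.card_univ, ← Nat.card_eq_fintype_card] at hkey
  have h6 : (4 : ℤ) * (Nat.card X : ℤ) ≤ 3 * ∑ χ : X, (charDegree (χ.1 : G → ℂ) : ℤ) := by
    rw [nsmul_eq_mul] at hkey
    linarith
  exact_mod_cast h6

end Fin

end CfsgLib.Acd19
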