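import Mathlib

set_option autoImplicit false

/-! Affine maps of `F_p^n` (helper13) -/

namespace CfsgLib.AffH13

theorem exists_linearEquiv_of_indep {K V ι : Type*} [Field K] [AddCommGroup V] [Module K V] [Finite ι]
    {x y : ι → V} (hx : LinearIndependent K x) (hy : LinearIndependent K y) :
    ∃ A : V ≃ₗ[K] V, ∀ i, A (x i) = y i := by
  have : FiniteDimensional K (Submodule.span K (Set.range x)) := FiniteDimensional.span_of_finite K (Set.finite_range x)
  obtain ⟨A, hA⟩ := Submodule.exists_linearEquiv_restrict_eq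
    ((Module.Basis.span hx).equiv (Module.Basis.span hy) (Equiv.refl ι))
  refine ⟨A, fun i => ?_⟩
  have h1 := hA (Module.Basis.span hx i)
  rw [Module.Basis.equiv_apply] at h1
  have h2 : ((Module.Basis.span hx i : Submodule.span K (Set.range x)) : V) = x i := congrArg Subtype.val (Module.Basis.span_apply hx i)
  have h3 : ((Module.Basis.span hy i : Submodule.span K (Set.range y)) : V) = y i := congrArg Subtype.val (Module.Basis.span_apply hy i)
  rw [h2, Equiv.refl_apply, h3] at h1
  exact h1.symm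

/-- for odd `p`, a permutation agreeing with an affine map on each triple is affine -/
theorem affine_of_triples (p : ℕ) [Fact p.Prime] (hp : p ≠ 2) {V : Type*} [AddCommGroup V] [Module (ZMod p) V]
    (σ : Equiv.Perm V) (h : ∀ x y z : V, ∃ (A : V ≃ₗ[ZMod p] V) (b : V), σ x = A x + b ∧ σ y = A y + b ∧ σ z = A z + b) :
    ∃ (A : V ≃ₗ[ZMod p] V) (b : V), ∀ x, σ x = A x + b := by
  have h2 : (2 : ZMod p) ≠ 0 := by
    intro hc
    have : ((2 : ℕ) : ZMod p) = 0 := by exact_mod_cast hc
    rw [ZMod.natCast_eq_zero_iff] at this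
    have h3 := (Nat.prime_dvd_prime_iff_eq Fact.out Nat.prime_two).mp this
    exact hp h3
  have hsmul : ∀ (c : ZMod p) (y : V), σ (c • y) - σ 0 = c • (σ y - σ 0) := by
    intro c y
    obtain ⟨A, b, h1, h2, h3⟩ := h 0 y (c • y)
    rw [h1, h2, h3, map_zero, map_smul]
    module
  have hhalf : ∀ x y : V, σ ((2 : ZMod p)⁻¹ • (x + y)) - σ 0 = (2 : ZMod p)⁻¹ • ((σ x - σ 0) + (σ y - σ 0)) := by
    intro x y
    obtain ⟨A, b, h1, h3, h4⟩ := h x y ((2 : ZMod p)⁻¹ • (x + y))
    rw [h1, h3, h4, map_smul, map_add]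
    have e : (2 : ZMod p)⁻¹ • ((A x + b - σ 0) + (A y + b - σ 0)) =
        (2 : ZMod p)⁻¹ • (A x + A y) + ((2 : ZMod p)⁻¹ * 2) • (b - σ 0) := by module
    rw [e, inv_mul_cancel₀ h2, one_smul]
    abel
  have hadd : ∀ x y : V, σ (x + y) - σ 0 = (σ x - σ 0) + (σ y - σ 0) := by
    intro x y
    have h1 := hsmul 2 ((2 : ZMod p)⁻¹ • (x + y))
    rw [hhalf, smul_smul, smul_smul, mul_inv_cancel₀ h2, one_smul, one_smul] at h1
    exact h1
  let f : V →ₗ[ZMod p] V :=
    { toFun := fun x => σ x - σ 0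
      map_add' := hadd
      map_smul' := hsmul }
  have hf : Function.Bijective f := by
    constructor
    · intro x y hxy
      have : σ x - σ 0 = σ y - σ 0 := hxy
      exact σ.injective (sub_left_injective this)
    · intro y
      obtain ⟨x, hx⟩ := σ.surjective (y + σ 0)
      refine ⟨x, ?_⟩
      change σ x - σ 0 = y
      rw [hx]; abel
  refine ⟨LinearEquiv.ofBijective f hf, σ 0, fun x => ?_⟩
  change σ x = (σ x - σ 0) + σ 0
  abel

end CfsgLib.AffH13
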