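import Mathlib
import Cfsg.Agent.EqBase
import Cfsg.Prelude.Def_Blocks
import Cfsg.Agent.LibMurai
import Cfsg.Agent.LibBlockFong
import Cfsg.Agent.LibFixIrr19

/-!
# Koshitani-Külshammer: normal subgroups of `p`-power index, abelian defect group (S4640) (helper17)
-/

set_option autoImplicit false
set_option linter.unusedSectionVars false
set_option linter.style.haveILetI false
set_option linter.unusedSimpArgs false

namespace CfsgLib.KK

open CfsgLib.CharInt hiding irr_isCharacter irr_classFun irr_one_ne_zero schur_scalar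
open Cfsg CfsgLib.CharInt2 CfsgLib.CharBasic CfsgLib.BlockR CfsgLib.BlockCore
  CfsgLib.BlockIdem CfsgLib.BlockIdeal CfsgLib.BlockConj CfsgLib.BlockBrauer CfsgLib.BlockInd
  CfsgLib.BlockFMT CfsgLib.BlockFMT2 CfsgLib.PLocalInd CfsgLib.BlockOrth CfsgLib.BlockDefect
  CfsgLib.BlockReg CfsgLib.BlockReg2 CfsgLib.BlockCount CfsgLib.BlockCount2 CfsgLib.BlockQP
  CfsgLib.BlockCov CfsgLib.BlockCov2 CfsgLib.BlockCov3 CfsgLib.BlockCov4 CfsgLib.RobRank CfsgLib.BlockQuo
  CfsgLib.BlkS2 CfsgLib.BlockSq CfsgLib.CharIndA CfsgLib.Clifford CfsgLib.BlockFong CfsgLib.Murai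

open scoped ComplexConjugate Pointwise

universe u v

variable {M : Ideal AlgInt} {p : ℕ} [Fact p.Prime] {G : Type u} [Group G] [Fintype G]
  (N : Subgroup G) [hN : N.Normal] [Fintype N] [Fintype (G ⧸ N)]

section Lin

variable (hab : ∀ a b : G ⧸ N, a * b = b * a)
include hab

theorem lin_one (ξ : IrrCharacter (G ⧸ N)) : (ξ : G ⧸ N → ℂ) 1 = 1 :=
  irr_degree_one_of_comm hab ξ.2

theorem lin_norm (ξ : IrrCharacter (G ⧸ N)) (y : G ⧸ N) :
    (ξ : G ⧸ N → ℂ) y * conj ((ξ : G ⧸ N → ℂ) y) = 1 := by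
  obtain ⟨f, hf⟩ := exists_hom_of_linear (irr_isCharacter ξ.2) (lin_one N hab ξ)
  have h1 : f y ^ Nat.card (G ⧸ N) = 1 := by rw [← map_pow, pow_card_eq_one', map_one]
  have h2 : ((f y : ℂ)) ^ Nat.card (G ⧸ N) = 1 := by
    rw [← Units.val_pow_eq_pow_val, h1, Units.val_one]
  rw [hf, Complex.mul_conj, Complex.normSq_eq_norm_sq, norm_one_of_pow Nat.card_pos.ne' h2]
  norm_num

theorem sum_lin_apply (y : G ⧸ N) [Decidable (y = 1)] : ∑ ξ : IrrCharacter (G ⧸ N), (ξ : G ⧸ N → ℂ) y =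
    if y = 1 then (Nat.card (G ⧸ N) : ℂ) else 0 := by
  by_cases hy : y = 1
  · rw [if_pos hy, ← sum_sq_degree (G := G ⧸ N)]
    apply Finset.sum_congr rfl
    intro ξ _
    rw [hy, lin_one N hab ξ, one_pow]
  · rw [if_neg hy, ← sum_degree_mul y hy]
    apply Finset.sum_congr rfl
    intro ξ _
    rw [lin_one N hab ξ, one_mul]

/-- multiplication with a linear character of the quotient -/
theorem mul_irr (χ : IrrCharacter G) (ξ : IrrCharacter (G ⧸ N)) :
    IsIrrCharacter G (fun g => (χ : G → ℂ) g * (ξ : G ⧸ N → ℂ) (g : G ⧸ N)) := by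
  rw [irr_iff_norm_one]
  have h0 : IsCharacter G (fun g => (ξ : G ⧸ N → ℂ) (g : G ⧸ N)) :=
    irr_isCharacter (infl N ξ).2
  refine ⟨isCharacter_mul (irr_isCharacter χ.2) h0, ?_⟩
  rw [← irr_inner_self χ.2]
  unfold classInner
  congr 1
  apply Finset.sum_congr rfl
  intro g _
  rw [map_mul]
  have h1 := lin_norm N hab ξ (g : G ⧸ N)
  linear_combination ((χ : G → ℂ) g * conj ((χ : G → ℂ) g)) * h1

/-- the product as an irreducible character -/
def mulI (χ : IrrCharacter G) (ξ : IrrCharacter (G ⧸ N)) : IrrCharacter G :=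
  ⟨_, mul_irr N hab χ ξ⟩

theorem mulI_apply (χ : IrrCharacter G) (ξ : IrrCharacter (G ⧸ N)) (g : G) :
    (mulI N hab χ ξ : G → ℂ) g = (χ : G → ℂ) g * (ξ : G ⧸ N → ℂ) (g : G ⧸ N) := rfl

theorem mulI_res (χ : IrrCharacter G) (ξ : IrrCharacter (G ⧸ N)) (n : N) :
    (mulI N hab χ ξ : G → ℂ) n = (χ : G → ℂ) n := by
  rw [mulI_apply, (QuotientGroup.eq_one_iff (n : G)).mpr n.2, lin_one N hab ξ, mul_one]

theorem sum_mulI (χ χ' : IrrCharacter G) :
    ∑ ξ : IrrCharacter (G ⧸ N), classInner (χ' : G → ℂ) (mulI N hab χ ξ : G → ℂ) =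
      classInner (fun n : N => (χ' : G → ℂ) n) (fun n : N => (χ : G → ℂ) n) := by
  classical
  unfold classInner
  rw [← Finset.mul_sum, Finset.sum_comm]
  have h1 : ∀ g : G, ∑ ξ : IrrCharacter (G ⧸ N), (χ' : G → ℂ) g * conj ((mulI N hab χ ξ : G → ℂ) g) =
      ext0 N (fun n : N => (χ' : G → ℂ) n * conj ((χ : G → ℂ) n)) g * (Nat.card (G ⧸ N) : ℂ) := by
    intro g
    have h2 : ∀ ξ : IrrCharacter (G ⧸ N), (χ' : G → ℂ) g * conj ((mulI N hab χ ξ : G → ℂ) g) =
        (χ' : G → ℂ) g * conj ((χ : G → ℂ) g) * conj ((ξ : G ⧸ N → ℂ) (g : G ⧸ N)) := by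
      intro ξ
      rw [mulI_apply, map_mul]; ring
    rw [Finset.sum_congr rfl (fun ξ _ => h2 ξ), ← Finset.mul_sum, ← map_sum, sum_lin_apply N hab]
    by_cases hg : g ∈ N
    · rw [if_pos ((QuotientGroup.eq_one_iff g).mpr hg), ext0_mem _ hg]
      simp
    · rw [if_neg (fun h => hg ((QuotientGroup.eq_one_iff g).mp h)), ext0_not _ hg]
      simp
  rw [Finset.sum_congr rfl (fun g _ => h1 g), ← Finset.sum_mul]
  have h3 := sum_ext0_mul (H := N) (fun n : N => (χ' : G → ℂ) n * conj ((χ : G → ℂ) n)) (fun _ => (1 : ℂ))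
  simp only [mul_one] at h3
  rw [h3]
  have h4 : (Nat.card G : ℂ) = (Nat.card (G ⧸ N) : ℂ) * (Nat.card N : ℂ) := by
    exact_mod_cast Subgroup.card_eq_card_quotient_mul_card_subgroup N
  have h5 : (Nat.card (G ⧸ N) : ℂ) ≠ 0 := by exact_mod_cast Nat.card_pos.ne'
  have h6 : (Nat.card N : ℂ) ≠ 0 := by exact_mod_cast Nat.card_pos.ne'
  rw [h4]
  field_simp

end Lin

theorem card_irr_comm (hab : ∀ a b : G ⧸ N, a * b = b * a) :
    Nat.card (IrrCharacter (G ⧸ N)) = N.index := by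
  classical
  have h1 := sum_sq_degree (G := G ⧸ N)
  have h2 : ∀ ξ : IrrCharacter (G ⧸ N), (ξ : G ⧸ N → ℂ) 1 ^ 2 = 1 := by
    intro ξ; rw [lin_one N hab ξ, one_pow]
  rw [Finset.sum_congr rfl (fun ξ _ => h2 ξ), Finset.sum_const, Finset.card_univ, nsmul_eq_mul,
    mul_one, ← Nat.card_eq_fintype_card] at h1
  exact_mod_cast h1

theorem reg_ext (hidx : ∃ k : ℕ, N.index = p ^ k) {χ : IrrCharacter G} {θ : IrrCharacter N}
    (h : ∀ n : N, (χ : G → ℂ) n = (θ : N → ℂ) n) :
    reg p (χ : G → ℂ) = ext0 N (reg p (θ : N → ℂ)) := by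
  funext g
  by_cases hg : g ∈ N
  · rw [ext0_mem _ hg]
    by_cases hp : p ∣ orderOf g
    · rw [reg_not hp, reg_not (by rw [Subgroup.orderOf_mk]; exact hp)]
    · rw [reg_of hp, reg_of (by rw [Subgroup.orderOf_mk]; exact hp)]
      exact h ⟨g, hg⟩
  · rw [ext0_not _ hg, reg_not]
    by_contra hp
    exact hg (mem_of_reg_of_pindex N hidx hp)

/-- S4640 -/
theorem s4640 (hM : IsPModular p M) (hidx : ∃ k : ℕ, N.index = p ^ k)
    {b : Set (IrrCharacter N)} (hb : IsPBlock M b)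
    (hinv : ∀ (g : G), ∀ θ ∈ b, cjI N g θ ∈ b)
    {B : Set (IrrCharacter G)} (hB : IsPBlock M B) (hcov : Cov N B b)
    {P : Subgroup G} (hP : IsDefectGroup p M B P) (hPab : ∀ x ∈ P, ∀ y ∈ P, x * y = y * x) :
    N ⊔ P = ⊤ ∧ IsDefectGroup p M b ((P ⊓ N).subgroupOf N) ∧
    (∀ χ ∈ B, ∃ θ ∈ b, ∀ n : N, (χ : G → ℂ) n = (θ : N → ℂ) n) ∧
    (∀ θ ∈ b, Nat.card {χ : IrrCharacter G // χ ∈ B ∧ ∀ n : N, (χ : G → ℂ) n = (θ : N → ℂ) n} =
      N.index) ∧
    Nat.card B = N.index * Nat.card b ∧ blockRank p B = blockRank p b := by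
  classical
  have hp := isPrime_of_modular hM
  have hpp : p.Prime := Fact.out
  obtain ⟨h1, h2, _⟩ := s0970 N hM hb hinv hB hcov
    (fun B' hB' hcov' => by rw [cov_unique_pindex N hM hidx hb hB hB' hcov hcov']) hP
  have htop : N ⊔ P = ⊤ := by
    rw [sup_comm, ← Subgroup.index_eq_one]
    obtain ⟨k, hk⟩ := hidx
    have h3 : (P ⊔ N).index ∣ p ^ k := by rw [← hk]; exact Subgroup.index_dvd_of_le le_sup_right
    obtain ⟨j, _, hj⟩ := (Nat.dvd_prime_pow hpp).mp h3
    rw [hj] at h1 ⊢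
    have : j = 0 := by
      by_contra h4
      exact h1 (dvd_pow_self p h4)
    rw [this, pow_zero]
  -- every element of the quotient comes from P
  have hsurj : ∀ y : G ⧸ N, ∃ x ∈ P, (x : G ⧸ N) = y := by
    intro y
    obtain ⟨g, rfl⟩ := QuotientGroup.mk_surjective y
    have h3 : g ∈ N ⊔ P := by rw [htop]; trivial
    obtain ⟨n, hn, x, hx, hnx⟩ := Subgroup.mem_sup_of_normal_left.mp h3
    refine ⟨x, hx, ?_⟩
    rw [← hnx]
    change (x : G ⧸ N) = (n : G ⧸ N) * (x : G ⧸ N)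
    rw [(QuotientGroup.eq_one_iff n).mpr hn, one_mul]
  have hab : ∀ a b : G ⧸ N, a * b = b * a := by
    intro a b
    obtain ⟨x, hx, rfl⟩ := hsurj a
    obtain ⟨y, hy, rfl⟩ := hsurj b
    change ((x * y : G) : G ⧸ N) = ((y * x : G) : G ⧸ N)
    rw [hPab x hx y hy]
  -- no twisting fixes χ
  have hfix : ∀ χ ∈ B, ∀ ξ : IrrCharacter (G ⧸ N), mulI N hab χ ξ = χ →
      (ξ : G ⧸ N → ℂ) = fun _ => 1 := by
    intro χ hχ ξ hξ
    funext y
    obtain ⟨u, hu, rfl⟩ := hsurj y
    obtain ⟨z, hz, ⟨S, hS⟩⟩ := isDefectGroup_iff.mp hP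
    have hz1 : ¬ p ∣ orderOf z := by
      intro h
      apply hz.2.1
      rw [blockCoeff_eq_zero hM hB h]
      exact ideal_zero hp
    have hzN : z ∈ N := mem_of_reg_of_pindex N hidx hz1
    rw [← hS] at hu
    obtain ⟨v, hv, hvu⟩ := hu
    have h3 := centralChar_mul hM hB hz S hv (fun w hw => by
      apply Subtype.ext
      have h4 : (v : G) ∈ P := by rw [← hS]; exact ⟨v, hv, rfl⟩
      have h5 : (w : G) ∈ P := by rw [← hS]; exact ⟨w, hw, rfl⟩
      exact hPab _ h4 _ h5) hχ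
    have h4 : (χ : G → ℂ) ((v : G) * z) ≠ 0 := by
      intro h5
      apply h3
      unfold centralChar
      rw [h5, mul_zero, zero_div]
      exact ideal_zero hp
    have h5 : (mulI N hab χ ξ : G → ℂ) ((v : G) * z) = (χ : G → ℂ) ((v : G) * z) := by rw [hξ]
    rw [mulI_apply] at h5
    have h6 : (((v : G) * z : G) : G ⧸ N) = (u : G ⧸ N) := by
      have h7 : (v : G) = u := hvu
      rw [h7]
      change (u : G ⧸ N) * (z : G ⧸ N) = _
      rw [(QuotientGroup.eq_one_iff z).mpr hzN, mul_one]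
    rw [h6] at h5
    exact mul_left_cancel₀ h4 (by rw [h5, mul_one])
  have hres : ∀ χ ∈ B, ∃ θ ∈ b, ∀ n : N, (χ : G → ℂ) n = (θ : N → ℂ) n := by
    intro χ hχ
    have h3 := sum_mulI N hab χ χ
    rw [Finset.sum_eq_single (triv (G ⧸ N))] at h3
    · have h4 : mulI N hab χ (triv (G ⧸ N)) = χ := by
        apply Subtype.ext
        funext g
        rw [mulI_apply, triv_apply, mul_one]
      rw [h4, irr_inner_self χ.2] at h3
      have h5 : IsIrrCharacter N (fun n : N => (χ : G → ℂ) n) :=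
        irr_iff_norm_one.mpr ⟨isCharacter_restrict (irr_isCharacter χ.2) N, h3.symm⟩
      obtain ⟨θ, hθ, h6⟩ := cov_under N hM hB hb hcov hχ
      refine ⟨θ, hθ, ?_⟩
      intro n
      by_contra h7
      apply h6
      apply irr_inner_ne h5 θ.2
      intro h8
      exact h7 (congrFun h8 n)
    · intro ξ _ hξ
      apply irr_inner_ne χ.2 (mulI N hab χ ξ).2
      intro h4
      apply hξ
      apply Subtype.ext
      rw [hfix χ hχ ξ (Subtype.ext h4.symm)]
      rfl
    · intro h; exact absurd (Finset.mem_univ _) h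
  have hmemB : ∀ χ ∈ B, ∀ ξ : IrrCharacter (G ⧸ N), mulI N hab χ ξ ∈ B := by
    intro χ hχ ξ
    obtain ⟨θ, hθ, h3⟩ := hres χ hχ
    have h4 : classInner (fun n : N => (mulI N hab χ ξ : G → ℂ) n) (θ : N → ℂ) ≠ 0 := by
      have h5 : (fun n : N => (mulI N hab χ ξ : G → ℂ) n) = (θ : N → ℂ) := by
        funext n
        rw [mulI_res, h3]
      rw [h5, irr_inner_self θ.2]
      exact one_ne_zero
    have h5 : IsPBlock M (blockOf M (mulI N hab χ ξ : G → ℂ)) := ⟨_, rfl⟩
    have h6 : Cov N (blockOf M (mulI N hab χ ξ : G → ℂ)) b :=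
      ⟨_, mem_blockOf_self hp _, θ, hθ, h4⟩
    rw [cov_unique_pindex N hM hidx hb hB h5 hcov h6]
    exact mem_blockOf_self hp _
  have hcount : ∀ θ ∈ b, Nat.card {χ : IrrCharacter G // χ ∈ B ∧
      ∀ n : N, (χ : G → ℂ) n = (θ : N → ℂ) n} = N.index := by
    intro θ hθ
    obtain ⟨χ, hχ, h3⟩ := under_of_cov N hM hB hb hcov hθ
    obtain ⟨θ', hθ', h4⟩ := hres χ hχ
    have h5 : θ' = θ := by
      by_contra h6
      apply h3
      have h7 : (fun n : N => (χ : G → ℂ) n) = (θ' : N → ℂ) := funext h4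
      rw [h7]
      exact irr_inner_ne θ'.2 θ.2 (fun h8 => h6 (Subtype.ext h8))
    rw [h5] at h4
    rw [← card_irr_comm N hab]
    symm
    apply Nat.card_congr
    refine Equiv.ofBijective (fun ξ : IrrCharacter (G ⧸ N) =>
      (⟨mulI N hab χ ξ, hmemB χ hχ ξ, fun n => by rw [mulI_res, h4]⟩ :
        {χ : IrrCharacter G // χ ∈ B ∧ ∀ n : N, (χ : G → ℂ) n = (θ : N → ℂ) n})) ⟨?_, ?_⟩
    · -- injective: count norms
      intro ξ ξ' hξ
      have h6 : mulI N hab χ ξ = mulI N hab χ ξ' := congrArg Subtype.val hξ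
      have h7 := sum_mulI N hab χ (mulI N hab χ ξ)
      have h8 : (fun n : N => (mulI N hab χ ξ : G → ℂ) n) = (θ : N → ℂ) := by
        funext n; rw [mulI_res, h4]
      have h9 : (fun n : N => (χ : G → ℂ) n) = (θ : N → ℂ) := funext h4
      rw [h8, h9, irr_inner_self θ.2] at h7
      by_contra hne
      have h10 : ∀ τ : IrrCharacter (G ⧸ N), ∃ k : ℕ,
          classInner (mulI N hab χ ξ : G → ℂ) (mulI N hab χ τ : G → ℂ) = k :=
        fun τ => char_mult (irr_isCharacter (mulI N hab χ ξ).2) (irr_isCharacter (mulI N hab χ τ).2)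
      choose k hk using h10
      rw [Finset.sum_congr rfl (fun τ _ => hk τ)] at h7
      have h11 : k ξ = 1 := by
        have := hk ξ
        rw [irr_inner_self (mulI N hab χ ξ).2] at this
        exact_mod_cast this.symm
      have h12 : k ξ' = 1 := by
        have := hk ξ'
        rw [← h6, irr_inner_self (mulI N hab χ ξ).2] at this
        exact_mod_cast this.symm
      have h13 : k ξ + k ξ' ≤ ∑ τ : IrrCharacter (G ⧸ N), k τ := by
        rw [← Finset.sum_pair hne]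
        exact Finset.sum_le_sum_of_subset (Finset.subset_univ _)
      have h14 : ∑ τ : IrrCharacter (G ⧸ N), k τ = 1 := by exact_mod_cast h7
      omega
    · rintro ⟨χ', hχ', h6⟩
      have h7 := sum_mulI N hab χ χ'
      have h8 : (fun n : N => (χ' : G → ℂ) n) = (θ : N → ℂ) := funext h6
      have h9 : (fun n : N => (χ : G → ℂ) n) = (θ : N → ℂ) := funext h4
      rw [h8, h9, irr_inner_self θ.2] at h7
      have h10 : ∑ ξ : IrrCharacter (G ⧸ N), classInner (χ' : G → ℂ) (mulI N hab χ ξ : G → ℂ) ≠ 0 := by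
        rw [h7]; exact one_ne_zero
      obtain ⟨ξ, _, hξ⟩ := Finset.exists_ne_zero_of_sum_ne_zero h10
      refine ⟨ξ, ?_⟩
      apply Subtype.ext
      apply Subtype.ext
      by_contra h11
      exact hξ (irr_inner_ne χ'.2 (mulI N hab χ ξ).2 (fun h12 => h11 h12.symm))
  refine ⟨htop, h2, hres, hcount, ?_, ?_⟩
  · choose F hF1 hF2 using hres
    have e : B ≃ Σ θ : b, {χ : IrrCharacter G // χ ∈ B ∧ ∀ n : N, (χ : G → ℂ) n = ((θ : IrrCharacter N) : N → ℂ) n} :=
      { toFun := fun χ => ⟨⟨F χ χ.2, hF1 χ χ.2⟩, ⟨χ, χ.2, hF2 χ χ.2⟩⟩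
        invFun := fun q => ⟨q.2.1, q.2.2.1⟩
        left_inv := fun χ => rfl
        right_inv := by
          rintro ⟨⟨θ, hθ⟩, ⟨χ, hχ, h3⟩⟩
          have h4 : F χ hχ = θ := by
            apply Subtype.ext
            funext n
            rw [← hF2 χ hχ n, h3 n]
          subst h4
          rfl }
    rw [Nat.card_congr e, Nat.card_sigma]
    rw [Finset.sum_congr rfl (fun θ _ => hcount θ.1 θ.2), Finset.sum_const, Finset.card_univ,
      smul_eq_mul, Nat.card_eq_fintype_card (α := b), mul_comm]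
  · -- ranks
    let E : (N → ℂ) →ₗ[ℂ] (G → ℂ) :=
      { toFun := fun f => ext0 N f
        map_add' := by
          intro f g
          funext x
          by_cases hx : x ∈ N
          · rw [Pi.add_apply, ext0_mem _ hx, ext0_mem _ hx, ext0_mem _ hx]; rfl
          · rw [Pi.add_apply, ext0_not _ hx, ext0_not _ hx, ext0_not _ hx, add_zero]
        map_smul' := by
          intro c f
          funext x
          by_cases hx : x ∈ N
          · rw [Pi.smul_apply, ext0_mem _ hx, ext0_mem _ hx]; rfl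
          · rw [Pi.smul_apply, ext0_not _ hx, ext0_not _ hx, smul_zero] }
    have hEinj : Function.Injective E := by
      intro f g h
      funext n
      have h3 := congrFun h (n : G)
      have h4 : ext0 N f (n : G) = ext0 N g (n : G) := h3
      rwa [ext0_coe, ext0_coe] at h4
    unfold blockRank
    have himg : (fun χ : IrrCharacter G => pRegularPart p (χ : G → ℂ)) '' B =
        E '' ((fun θ : IrrCharacter N => pRegularPart p (θ : N → ℂ)) '' b) := by
      have hreg : ∀ {H : Type u} [Group H] [Fintype H] (f : H → ℂ), pRegularPart p f = reg p f := by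
        intro H _ _ f
        exact CfsgLib.BlockSec3.pRegularPart_eq f
      ext f
      constructor
      · rintro ⟨χ, hχ, rfl⟩
        obtain ⟨θ, hθ, h3⟩ := hres χ hχ
        refine ⟨_, ⟨θ, hθ, rfl⟩, ?_⟩
        simp only [hreg]
        exact (reg_ext N hidx h3).symm
      · rintro ⟨_, ⟨θ, hθ, rfl⟩, rfl⟩
        have h3 := hcount θ hθ
        have h4 : Nonempty {χ : IrrCharacter G // χ ∈ B ∧ ∀ n : N, (χ : G → ℂ) n = (θ : N → ℂ) n} := by
          rw [← Finite.card_pos_iff, h3]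
          exact Nat.pos_of_ne_zero Subgroup.index_ne_zero_of_finite
        obtain ⟨χ, hχ, h5⟩ := h4
        refine ⟨χ, hχ, ?_⟩
        simp only [hreg]
        exact reg_ext N hidx h5
    rw [himg, ← Submodule.map_span]
    exact (Submodule.equivMapOfInjective E hEinj _).finrank_eq.symm

end CfsgLib.KK
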