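import Mathlib
import Cfsg.Agent.EqBase
import Cfsg.Prelude.Def_Blocks
import Cfsg.Agent.LibKK
import Cfsg.Agent.LibModRoots
import Cfsg.Agent.LibGallagher
import Cfsg.Agent.LibMonomial
import Cfsg.Agent.LibExtend2

/-!
# Alperin: isomorphic principal blocks (S4551) (helper17)
-/

set_option autoImplicit false
set_option linter.unusedSectionVars false
set_option linter.style.haveILetI false
set_option linter.unusedSimpArgs false

namespace CfsgLib.AlpIso

open CfsgLib.CharInt hiding irr_isCharacter irr_classFun irr_one_ne_zero schur_scalar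
open Cfsg CfsgLib.CharInt2 CfsgLib.CharBasic CfsgLib.BlockR CfsgLib.BlockCore
  CfsgLib.BlockIdem CfsgLib.BlockIdeal CfsgLib.BlockConj CfsgLib.BlockBrauer CfsgLib.BlockInd
  CfsgLib.BlockFMT CfsgLib.BlockFMT2 CfsgLib.PLocalInd CfsgLib.BlockOrth CfsgLib.BlockDefect
  CfsgLib.BlockReg CfsgLib.BlockReg2 CfsgLib.BlockCount CfsgLib.BlockCount2 CfsgLib.BlockQP
  CfsgLib.BlockCov CfsgLib.BlockCov2 CfsgLib.BlockCov3 CfsgLib.BlockCov4 CfsgLib.RobRank CfsgLib.BlockQuo
  CfsgLib.BlkS2 CfsgLib.BlockSq CfsgLib.CharIndA CfsgLib.Clifford CfsgLib.BlockFong CfsgLib.Murai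
  CfsgLib.KK

open scoped ComplexConjugate Pointwise commutatorElement

universe u v

variable {M : Ideal AlgInt} {p : ℕ} [Fact p.Prime] {G : Type u} [Group G] [Fintype G]

/-- values of principal block characters on elements of full defect -/
theorem val_congr (hM : IsPModular p M) {χ : IrrCharacter G} (hχ : χ ∈ principalBlock M G) {c : G}
    (hc : ¬ p ∣ (Subgroup.centralizer ({c} : Set G)).index) :
    MemLocalIdeal M ((χ : G → ℂ) c / (χ : G → ℂ) 1 - 1) := by
  have hp := isPrime_of_modular hM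
  have h1 := hχ c
  have h2 : centralChar (fun _ : G => (1 : ℂ)) c =
      ((Subgroup.centralizer ({c} : Set G)).index : ℂ) := by
    unfold centralChar; simp
  rw [h2] at h1
  have hi : ¬ MemLocalIdeal M ((Subgroup.centralizer ({c} : Set G)).index : ℂ) :=
    fun h5 => hc ((ideal_nat_iff hM).mp h5)
  have hi0 : ((Subgroup.centralizer ({c} : Set G)).index : ℂ) ≠ 0 := ne_zero_of_not_ideal hp hi
  have h0 := CharBasic.irr_one_ne_zero χ.2
  have h3 : (χ : G → ℂ) c / (χ : G → ℂ) 1 - 1 =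
      (-(((Subgroup.centralizer ({c} : Set G)).index : ℂ) - centralChar (χ : G → ℂ) c)) *
        (1 / ((Subgroup.centralizer ({c} : Set G)).index : ℂ)) := by
    unfold centralChar
    field_simp
    ring
  rw [h3]
  exact ideal_mul_right hp (ideal_neg h1) (ring_div hp (ring_one hp) (ring_nat hp _) hi)

theorem root_eq_one (hM : IsPModular p M) {z : ℂ} {m : ℕ} (hm : ¬ p ∣ m) (hz : z ^ m = 1)
    (h : MemLocalIdeal M (z - 1)) : z = 1 := by
  have hp := isPrime_of_modular hM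
  have hm0 : m ≠ 0 := by rintro rfl; exact hm (dvd_zero _)
  have hint : IsIntegral ℤ z := IsIntegral.of_pow (Nat.pos_of_ne_zero hm0) (by rw [hz]; exact isIntegral_one)
  have h1 := CfsgLib.ModRoots.inj hM (⟨z, hint⟩ : AlgInt) 1 ⟨m, hm, hz⟩ ⟨1, by
    intro h2; exact (Fact.out : p.Prime).one_lt.ne' (Nat.dvd_one.mp h2), by simp⟩ (by
      have h2 : MemLocalIdeal M (((⟨z, hint⟩ : AlgInt) - 1 : AlgInt) : ℂ) := by
        push_cast; exact h
      exact (ideal_algInt_iff hp).mp h2)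
  exact congrArg Subtype.val h1

theorem cent_index {P : Sylow p G} {c : G}
    (hc : c ∈ Subgroup.centralizer ((P : Subgroup G) : Set G)) :
    ¬ p ∣ (Subgroup.centralizer ({c} : Set G)).index := by
  intro h
  have h1 : (P : Subgroup G) ≤ Subgroup.centralizer ({c} : Set G) := le_centralizer_iff.mpr hc
  exact P.not_dvd_index (h.trans (Subgroup.index_dvd_of_le h1))

/-- linear twists inside the principal block are trivial -/
theorem twist_trivial_aux (hM : IsPModular p M) (N : Subgroup G) [N.Normal] [Fintype N]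
    [Fintype (G ⧸ N)] (hidx : ¬ p ∣ N.index) (hab : ∀ a b : G ⧸ N, a * b = b * a) (S : Set G)
    (hC : ∀ g : G, ∃ c ∈ S, (c : G ⧸ N) = (g : G ⧸ N))
    {χ : IrrCharacter G} {ξ : IrrCharacter (G ⧸ N)}
    (hχ : ∀ c ∈ S, MemLocalIdeal M ((χ : G → ℂ) c / (χ : G → ℂ) 1 - 1))
    (h : ∀ c ∈ S, MemLocalIdeal M ((mulI N hab χ ξ : G → ℂ) c / (mulI N hab χ ξ : G → ℂ) 1 - 1)) :
    (ξ : G ⧸ N → ℂ) = fun _ => 1 := by
  have hp := isPrime_of_modular hM
  funext y
  obtain ⟨g, rfl⟩ := QuotientGroup.mk_surjective y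
  obtain ⟨c, hc, hcg⟩ := hC g
  rw [← hcg]
  have h1 := hχ c hc
  have h2 := h c hc
  rw [mulI_apply, mulI_apply] at h2
  have h3 : (ξ : G ⧸ N → ℂ) ((1 : G) : G ⧸ N) = 1 := lin_one N hab ξ
  rw [h3, mul_one] at h2
  have h0 := CharBasic.irr_one_ne_zero χ.2
  set z := (ξ : G ⧸ N → ℂ) (c : G ⧸ N) with hz
  have hpow : z ^ Nat.card (G ⧸ N) = 1 := by
    obtain ⟨f, hf⟩ := exists_hom_of_linear (irr_isCharacter ξ.2) (lin_one N hab ξ)
    rw [hz, hf, ← Units.val_pow_eq_pow_val, ← map_pow, pow_card_eq_one', map_one, Units.val_one]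
  have hzR : MemLocalRing M z := by
    rw [hz]; exact irr_ring hp ξ _
  have hw : ¬ MemLocalIdeal M ((χ : G → ℂ) c / (χ : G → ℂ) 1) := by
    intro h4
    have h5 := ideal_sub hp h4 h1
    rw [sub_sub_cancel] at h5
    exact not_ideal_one hp h5
  have h4 : MemLocalIdeal M (z * ((χ : G → ℂ) c / (χ : G → ℂ) 1) - (χ : G → ℂ) c / (χ : G → ℂ) 1) := by
    have h5 := ideal_sub hp h2 h1
    have h6 : (χ : G → ℂ) c * z / (χ : G → ℂ) 1 - 1 - ((χ : G → ℂ) c / (χ : G → ℂ) 1 - 1) =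
        z * ((χ : G → ℂ) c / (χ : G → ℂ) 1) - (χ : G → ℂ) c / (χ : G → ℂ) 1 := by ring
    rwa [h6] at h5
  have h5 : MemLocalIdeal M (z - 1) := by
    have h6 : z * ((χ : G → ℂ) c / (χ : G → ℂ) 1) - (χ : G → ℂ) c / (χ : G → ℂ) 1 =
        (z - 1) * ((χ : G → ℂ) c / (χ : G → ℂ) 1) := by ring
    rw [h6] at h4
    have hwR : MemLocalRing M ((χ : G → ℂ) c / (χ : G → ℂ) 1) := by
      have := ring_add hp (ideal_ring h1) (ring_one hp)
      rwa [sub_add_cancel] at this
    rcases ideal_prime hp (ring_sub hp hzR (ring_one hp)) hwR h4 with h7 | h7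
    · exact h7
    · exact absurd h7 hw
  exact root_eq_one hM hidx hpow h5

theorem twist_trivial (hM : IsPModular p M) (N : Subgroup G) [N.Normal] [Fintype N]
    [Fintype (G ⧸ N)] (hidx : ¬ p ∣ N.index) (hab : ∀ a b : G ⧸ N, a * b = b * a) (P : Sylow p G)
    (hC : ∀ g : G, ∃ c ∈ Subgroup.centralizer ((P : Subgroup G) : Set G), (c : G ⧸ N) = (g : G ⧸ N))
    {χ : IrrCharacter G} {ξ : IrrCharacter (G ⧸ N)} (hχ : χ ∈ principalBlock M G)
    (h : mulI N hab χ ξ ∈ principalBlock M G) : (ξ : G ⧸ N → ℂ) = fun _ => 1 :=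
  twist_trivial_aux hM N hidx hab (Subgroup.centralizer ((P : Subgroup G) : Set G) : Set G) hC
    (fun _ hc => val_congr hM hχ (cent_index hc)) (fun _ hc => val_congr hM h (cent_index hc))

/-- the abelian step -/
theorem ab_step (hM : IsPModular p M) (N : Subgroup G) [hN : N.Normal] [Fintype N]
    [Fintype (G ⧸ N)] (hidx : ¬ p ∣ N.index) (hab : ∀ a b : G ⧸ N, a * b = b * a) (P : Sylow p G)
    (hC : ∀ g : G, ∃ c ∈ Subgroup.centralizer ((P : Subgroup G) : Set G), (c : G ⧸ N) = (g : G ⧸ N)) :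
    (∀ χ ∈ principalBlock M G, ∃ θ ∈ principalBlock M N, ∀ n : N, (χ : G → ℂ) n = (θ : N → ℂ) n) ∧
    (∀ θ ∈ principalBlock M N, ∃ χ ∈ principalBlock M G, ∀ n : N, (χ : G → ℂ) n = (θ : N → ℂ) n) ∧
    (∀ χ ∈ principalBlock M G, ∀ χ' : IrrCharacter G, ∀ (ξ : IrrCharacter (G ⧸ N)),
      χ' = mulI N hab χ ξ → χ' ∈ principalBlock M G → χ' = χ) := by
  classical
  have hp := isPrime_of_modular hM
  have hB := principal_isPBlock M G
  have hb := principal_isPBlock M N
  have hcov : Cov N (principalBlock M G) (principalBlock M N) := by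
    refine ⟨triv G, sameBlock_refl hp _, triv N, sameBlock_refl hp _, ?_⟩
    have h1 : (fun n : N => (triv G : G → ℂ) n) = (triv N : N → ℂ) := rfl
    rw [h1, irr_inner_self (triv N).2]
    exact one_ne_zero
  have htw : ∀ (χ : IrrCharacter G) (ξ : IrrCharacter (G ⧸ N)), (ξ : G ⧸ N → ℂ) = (fun _ => 1) →
      mulI N hab χ ξ = χ := by
    intro χ ξ h
    apply Subtype.ext
    funext g
    rw [mulI_apply, h, mul_one]
  have hres : ∀ χ ∈ principalBlock M G, ∃ θ ∈ principalBlock M N,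
      ∀ n : N, (χ : G → ℂ) n = (θ : N → ℂ) n := by
    intro χ hχ
    have h3 := sum_mulI N hab χ χ
    rw [Finset.sum_eq_single (triv (G ⧸ N))] at h3
    · rw [htw χ _ rfl, irr_inner_self χ.2] at h3
      have h5 : IsIrrCharacter N (fun n : N => (χ : G → ℂ) n) :=
        irr_iff_norm_one.mpr ⟨isCharacter_restrict (irr_isCharacter χ.2) N, h3.symm⟩
      obtain ⟨θ, hθ, h6⟩ := cov_under N hM hB hb hcov hχ
      refine ⟨θ, hθ, ?_⟩
      intro n
      by_contra h7
      apply h6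
      apply irr_inner_ne h5 θ.2
      intro h8
      exact h7 (congrFun h8 n)
    · intro ξ _ hξ
      apply irr_inner_ne χ.2 (mulI N hab χ ξ).2
      intro h4
      apply hξ
      have h5 : χ = mulI N hab χ ξ := Subtype.ext h4
      apply Subtype.ext
      rw [twist_trivial hM N hidx hab P hC hχ (h5 ▸ hχ)]
      rfl
    · intro h; exact absurd (Finset.mem_univ _) h
  refine ⟨hres, ?_, ?_⟩
  · intro θ hθ
    obtain ⟨χ, hχ, h3⟩ := under_of_cov N hM hB hb hcov hθ
    obtain ⟨θ', hθ', h4⟩ := hres χ hχ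
    have h5 : θ' = θ := by
      by_contra h6
      apply h3
      have h7 : (fun n : N => (χ : G → ℂ) n) = (θ' : N → ℂ) := funext h4
      rw [h7]
      exact irr_inner_ne θ'.2 θ.2 (fun h8 => h6 (Subtype.ext h8))
    exact ⟨χ, hχ, h5 ▸ h4⟩
  · intro χ hχ χ' ξ hχ' hmem
    rw [hχ'] at hmem ⊢
    exact htw χ ξ (twist_trivial hM N hidx hab P hC hχ hmem)

/-- two characters with the same irreducible restriction differ by a linear twist -/
theorem exists_twist (N : Subgroup G) [hN : N.Normal] [Fintype N]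
    [Fintype (G ⧸ N)] (hab : ∀ a b : G ⧸ N, a * b = b * a) (χ χ' : IrrCharacter G)
    (θ : IrrCharacter N) (h : ∀ n : N, (χ : G → ℂ) n = (θ : N → ℂ) n)
    (h' : ∀ n : N, (χ' : G → ℂ) n = (θ : N → ℂ) n) :
    ∃ ξ : IrrCharacter (G ⧸ N), χ' = mulI N hab χ ξ := by
  classical
  have h7 := sum_mulI N hab χ χ'
  have h8 : (fun n : N => (χ' : G → ℂ) n) = (θ : N → ℂ) := funext h'
  have h9 : (fun n : N => (χ : G → ℂ) n) = (θ : N → ℂ) := funext h
  rw [h8, h9, irr_inner_self θ.2] at h7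
  have h10 : ∑ ξ : IrrCharacter (G ⧸ N), classInner (χ' : G → ℂ) (mulI N hab χ ξ : G → ℂ) ≠ 0 := by
    rw [h7]; exact one_ne_zero
  obtain ⟨ξ, _, hξ⟩ := Finset.exists_ne_zero_of_sum_ne_zero h10
  refine ⟨ξ, ?_⟩
  apply Subtype.ext
  by_contra h11
  exact hξ (irr_inner_ne χ'.2 (mulI N hab χ ξ).2 (fun h12 => h11 h12))

/-- membership in the principal block is invariant under isomorphisms -/
theorem principal_equiv {A : Type u} [Group A] [Fintype A] (e : A ≃* G) (χ : IrrCharacter G) :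
    irrEquiv e χ ∈ principalBlock M A ↔ χ ∈ principalBlock M G := by
  have h1 : ∀ a : A, centralChar (irrEquiv e χ : A → ℂ) a = centralChar (χ : G → ℂ) (e a) :=
    fun a => centralChar_comp_equiv e (χ : G → ℂ) a
  have h2 : ∀ a : A, centralChar (fun _ : A => (1 : ℂ)) a = centralChar (fun _ : G => (1 : ℂ)) (e a) :=
    fun a => centralChar_comp_equiv e (fun _ : G => (1 : ℂ)) a
  constructor
  · intro h g
    have h3 := h (e.symm g)
    rw [h1, h2, e.apply_symm_apply] at h3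
    exact h3
  · intro h a
    rw [h1, h2]
    exact h (e a)

/-- the restriction bijection between principal blocks of two subgroups -/
structure Good (M : Ideal AlgInt) (N H : Subgroup G) (h : N ≤ H) : Prop where
  res : ∀ χ ∈ principalBlock M H, ∃ θ ∈ principalBlock M N,
    ∀ n : N, (χ : H → ℂ) (Subgroup.inclusion h n) = (θ : N → ℂ) n
  ext : ∀ θ ∈ principalBlock M N, ∃ χ ∈ principalBlock M H,
    ∀ n : N, (χ : H → ℂ) (Subgroup.inclusion h n) = (θ : N → ℂ) n
  uniq : ∀ χ ∈ principalBlock M H, ∀ χ' ∈ principalBlock M H,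
    (∀ n : N, (χ : H → ℂ) (Subgroup.inclusion h n) = (χ' : H → ℂ) (Subgroup.inclusion h n)) → χ = χ'

theorem Good.trans {N N' H : Subgroup G} {h : N ≤ N'} {h' : N' ≤ H} (g : Good M N N' h)
    (g' : Good M N' H h') : Good M N H (h.trans h') where
  res χ hχ := by
    obtain ⟨θ', hθ', h1⟩ := g'.res χ hχ
    obtain ⟨θ, hθ, h2⟩ := g.res θ' hθ'
    exact ⟨θ, hθ, fun n => by rw [← h2, ← h1]; rfl⟩
  ext θ hθ := by
    obtain ⟨θ', hθ', h1⟩ := g.ext θ hθ
    obtain ⟨χ, hχ, h2⟩ := g'.ext θ' hθ'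
    exact ⟨χ, hχ, fun n => by rw [← h1, ← h2]; rfl⟩
  uniq χ hχ χ' hχ' heq := by
    obtain ⟨θ, hθ, h1⟩ := g'.res χ hχ
    obtain ⟨θ', hθ', h2⟩ := g'.res χ' hχ'
    have h3 : θ = θ' := by
      apply g.uniq θ hθ θ' hθ'
      intro n
      rw [← h1, ← h2]
      exact heq n
    apply g'.uniq χ hχ χ' hχ'
    intro n
    rw [h1, h2, h3]

theorem Good.refl (M : Ideal AlgInt) (N : Subgroup G) : Good M N N le_rfl where
  res χ hχ := ⟨χ, hχ, fun n => rfl⟩
  ext θ hθ := ⟨θ, hθ, fun n => rfl⟩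
  uniq χ hχ χ' hχ' heq := Subtype.ext (funext fun n => heq n)

/-- the abelian step, relative version -/
theorem good_ab (hM : IsPModular p M) (P : Sylow p G) {N H : Subgroup G} (h : N ≤ H)
    (hPN : (P : Subgroup G) ≤ N) (hn : ∀ x ∈ H, ∀ n ∈ N, x * n * x⁻¹ ∈ N)
    (hidx : ¬ p ∣ N.relIndex H) (hab : ∀ a ∈ H, ∀ b ∈ H, (a * b)⁻¹ * (b * a) ∈ N)
    (hC : ∀ x ∈ H, ∃ c ∈ H, c ∈ Subgroup.centralizer ((P : Subgroup G) : Set G) ∧ x⁻¹ * c ∈ N) :
    Good M N H h := by
  classical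
  haveI hN' : (N.subgroupOf H).Normal := by
    constructor
    intro n hn' x
    rw [Subgroup.mem_subgroupOf] at hn' ⊢
    exact hn x x.2 n hn'
  haveI : Fintype (N.subgroupOf H) := Fintype.ofFinite _
  haveI : Fintype (H ⧸ N.subgroupOf H) := Fintype.ofFinite _
  have hab' : ∀ a b : H ⧸ N.subgroupOf H, a * b = b * a := by
    intro a b
    obtain ⟨x, rfl⟩ := QuotientGroup.mk_surjective a
    obtain ⟨y, rfl⟩ := QuotientGroup.mk_surjective b
    rw [← QuotientGroup.mk_mul, ← QuotientGroup.mk_mul, QuotientGroup.eq]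
    rw [Subgroup.mem_subgroupOf]
    exact hab x x.2 y y.2
  have hPH : (P : Subgroup G) ≤ H := hPN.trans h
  have hC' : ∀ g : H, ∃ c ∈ Subgroup.centralizer (((P.subtype hPH : Sylow p H) : Subgroup H) : Set H),
      (c : H ⧸ N.subgroupOf H) = (g : H ⧸ N.subgroupOf H) := by
    intro g
    obtain ⟨c, hcH, hcC, hcN⟩ := hC g g.2
    refine ⟨⟨c, hcH⟩, ?_, ?_⟩
    · rw [Subgroup.mem_centralizer_iff]
      intro w hw
      apply Subtype.ext
      have hw' : w ∈ (P : Subgroup G).subgroupOf H := hw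
      exact Subgroup.mem_centralizer_iff.mp hcC w hw'
    · symm
      rw [QuotientGroup.eq, Subgroup.mem_subgroupOf]
      exact hcN
  obtain ⟨s1, s2, s3⟩ := ab_step hM (N.subgroupOf H) hidx hab' (P.subtype hPH) hC'
  let e : N.subgroupOf H ≃* N := Subgroup.subgroupOfEquivOfLe h
  have he : ∀ n : N.subgroupOf H, ((e n : N) : G) = (n : H) := fun n => rfl
  refine ⟨?_, ?_, ?_⟩
  · intro χ hχ
    obtain ⟨θ', hθ', h1⟩ := s1 χ hχ
    refine ⟨irrEquiv e.symm θ', (principal_equiv e.symm θ').mpr hθ', ?_⟩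
    intro n
    exact h1 (e.symm n)
  · intro θ hθ
    obtain ⟨χ, hχ, h1⟩ := s2 (irrEquiv e θ) ((principal_equiv e θ).mpr hθ)
    refine ⟨χ, hχ, ?_⟩
    intro n
    have h2 := h1 (e.symm n)
    have h3 : (irrEquiv e θ : N.subgroupOf H → ℂ) (e.symm n) = (θ : N → ℂ) n := by
      change (θ : N → ℂ) (e (e.symm n)) = _
      rw [e.apply_symm_apply]
    rw [h3] at h2
    exact h2
  · intro χ hχ χ' hχ' heq
    obtain ⟨θ', hθ', h1⟩ := s1 χ hχ
    have h2 : ∀ n : N.subgroupOf H, (χ' : H → ℂ) n = (θ' : N.subgroupOf H → ℂ) n := by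
      intro n
      rw [← h1 n]
      exact (heq (e n)).symm
    obtain ⟨ξ, hξ⟩ := exists_twist (N.subgroupOf H) hab' χ χ' θ' h1 h2
    exact (s3 χ hχ χ' ξ hξ hχ').symm

/-- solvable quotients -/
theorem good_solv (hM : IsPModular p M) (P : Sylow p G) (H : Subgroup G) : ∀ (n : ℕ) (N : Subgroup G)
    (h : N ≤ H) (_ : (P : Subgroup G) ≤ N) (_ : ∀ x ∈ H, ∀ n ∈ N, x * n * x⁻¹ ∈ N)
    (_ : ¬ p ∣ N.relIndex H)
    (_ : ∀ x ∈ H, ∃ c ∈ H, c ∈ Subgroup.centralizer ((P : Subgroup G) : Set G) ∧ x⁻¹ * c ∈ N)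
    (_ : ∀ x ∈ derivedSeries H n, (x : G) ∈ N), Good M N H h := by
  intro n
  induction n with
  | zero =>
    intro N h hPN hn hidx hC hsol
    have h1 : N = H := by
      apply le_antisymm h
      intro x hx
      exact hsol ⟨x, hx⟩ (by rw [derivedSeries_zero]; trivial)
    subst h1
    exact Good.refl M N
  | succ n ih =>
    intro N h hPN hn hidx hC hsol
    set D := (derivedSeries H n).map H.subtype with hD
    have hDH : D ≤ H := by
      rintro _ ⟨x, _, rfl⟩; exact x.2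
    set N' := N ⊔ D with hN'
    have hN'H : N' ≤ H := sup_le h hDH
    have hNN' : N ≤ N' := le_sup_left
    have hnD : ∀ x ∈ H, ∀ d ∈ D, x * d * x⁻¹ ∈ D := by
      rintro x hx _ ⟨d, hd, rfl⟩
      exact ⟨⟨x, hx⟩ * d * ⟨x, hx⟩⁻¹, (inferInstance : (derivedSeries H n).Normal).conj_mem d hd ⟨x, hx⟩, rfl⟩
    have hHn : H ≤ Subgroup.normalizer (N : Set G) := by
      intro x hx
      rw [Subgroup.mem_normalizer_iff]
      intro m
      constructor
      · intro hm; exact hn x hx m hm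
      · intro hm
        have h1 := hn x⁻¹ (H.inv_mem hx) _ hm
        have h2 : x⁻¹ * (x * m * x⁻¹) * x⁻¹⁻¹ = m := by group
        rwa [h2] at h1
    have hmem : ∀ a ∈ N', ∃ m ∈ N, ∃ d ∈ derivedSeries H n, a = m * (d : G) := by
      intro a ha
      have h1 : (a : G) ∈ (↑(D ⊔ N) : Set G) := by rw [sup_comm]; exact ha
      rw [Subgroup.coe_mul_of_left_le_normalizer_right D N (hDH.trans hHn)] at h1
      obtain ⟨d, ⟨d', hd', hdd⟩, m, hm, hdm⟩ := Set.mem_mul.mp h1
      refine ⟨d * m * d⁻¹, hn d (hDH ⟨d', hd', hdd⟩) m hm, d', hd', ?_⟩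
      rw [← hdm]
      have h2 : ((d' : H) : G) = d := hdd
      rw [h2]; group
    have hrel := Subgroup.relIndex_mul_relIndex N N' H hNN' hN'H
    have g1 : Good M N' H hN'H := by
      apply ih N' hN'H (hPN.trans hNN')
      · intro x hx a ha
        obtain ⟨m, hm, d, hd, rfl⟩ := hmem a ha
        have h1 : x * (m * (d : G)) * x⁻¹ = (x * m * x⁻¹) * (x * d * x⁻¹) := by group
        rw [h1]
        exact N'.mul_mem (hNN' (hn x hx m hm)) ((le_sup_right : D ≤ N') (hnD x hx d ⟨d, hd, rfl⟩))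
      · intro hd
        exact hidx (hd.trans (Dvd.intro_left _ hrel))
      · intro x hx
        obtain ⟨c, hcH, hcC, hcN⟩ := hC x hx
        exact ⟨c, hcH, hcC, hNN' hcN⟩
      · intro x hx
        exact (le_sup_right : D ≤ N') ⟨x, hx, rfl⟩
    have g2 : Good M N N' hNN' := by
      apply good_ab hM P hNN' hPN
      · intro x hx m hm
        exact hn x (hN'H hx) m hm
      · intro hd
        exact hidx (hd.trans (Dvd.intro _ hrel))
      · intro a ha b hb
        obtain ⟨m, hm, d, hd, rfl⟩ := hmem a ha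
        obtain ⟨m', hm', d', hd', rfl⟩ := hmem b hb
        -- work in the quotient
        haveI hNn : (N.subgroupOf H).Normal := by
          constructor
          intro n hn' x
          rw [Subgroup.mem_subgroupOf] at hn' ⊢
          exact hn x x.2 n hn'
        have hq : ∀ (m : G) (hm : m ∈ N), ((⟨m, h hm⟩ : H) : H ⧸ N.subgroupOf H) = 1 := by
          intro m hm
          exact (QuotientGroup.eq_one_iff _).mpr (by rw [Subgroup.mem_subgroupOf]; exact hm)
        have hcomm : ((d : H) : H ⧸ N.subgroupOf H) * (d' : H ⧸ N.subgroupOf H) =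
            (d' : H ⧸ N.subgroupOf H) * (d : H ⧸ N.subgroupOf H) := by
          rw [← QuotientGroup.mk_mul, ← QuotientGroup.mk_mul, QuotientGroup.eq,
            Subgroup.mem_subgroupOf]
          have h2 : ⁅(d')⁻¹, (d)⁻¹⁆ ∈ derivedSeries H (n + 1) := by
            rw [derivedSeries_succ]
            exact Subgroup.commutator_mem_commutator (Subgroup.inv_mem _ hd') (Subgroup.inv_mem _ hd)
          have h3 := hsol _ h2
          have h4 : (d * d')⁻¹ * (d' * d) = ⁅(d')⁻¹, (d)⁻¹⁆ := by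
            rw [commutatorElement_def]; group
          rw [h4]
          exact h3
        have h5 : (((⟨m, h hm⟩ : H) * d * ((⟨m', h hm'⟩ : H) * d') : H) : H ⧸ N.subgroupOf H) =
            (((⟨m', h hm'⟩ : H) * d' * ((⟨m, h hm⟩ : H) * d) : H) : H ⧸ N.subgroupOf H) := by
          simp only [QuotientGroup.mk_mul, hq m hm, hq m' hm', one_mul]
          exact hcomm
        rw [QuotientGroup.eq, Subgroup.mem_subgroupOf] at h5
        exact h5
      · intro x hx
        obtain ⟨c, hcH, hcC, hcN⟩ := hC x (hN'H hx)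
        refine ⟨c, ?_, hcC, hcN⟩
        have h1 : c = x * (x⁻¹ * c) := by group
        rw [h1]
        exact N'.mul_mem hx (hNN' hcN)
    exact g2.trans g1

theorem val_sub (hM : IsPModular p M) (P : Sylow p G) {H : Subgroup G}
    (hPH : (P : Subgroup G) ≤ H) {χ : IrrCharacter H} (hχ : χ ∈ principalBlock M H) (c : H)
    (hc : (c : G) ∈ Subgroup.centralizer ((P : Subgroup G) : Set G)) :
    MemLocalIdeal M ((χ : H → ℂ) c / (χ : H → ℂ) 1 - 1) := by
  haveI := Fintype.ofFinite H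
  apply val_congr hM hχ
  apply cent_index (P := P.subtype hPH)
  rw [Subgroup.mem_centralizer_iff]
  intro w hw
  apply Subtype.ext
  have hw' : w ∈ (P : Subgroup G).subgroupOf H := hw
  exact Subgroup.mem_centralizer_iff.mp hc w hw'

/-- the setting: N normal of `p'`-index containing P, `G = N C_G(P)` -/
structure Hyp (p : ℕ) (P : Sylow p G) (N : Subgroup G) : Prop where
  normal : N.Normal
  le : (P : Subgroup G) ≤ N
  idx : ¬ p ∣ N.index
  cent : ∀ g : G, ∃ c ∈ Subgroup.centralizer ((P : Subgroup G) : Set G), g⁻¹ * c ∈ N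

variable {P : Sylow p G} {N : Subgroup G}

theorem Hyp.centH (hyp : Hyp p P N) {H : Subgroup G} (h : N ≤ H) (x : G) (hx : x ∈ H) :
    ∃ c ∈ H, c ∈ Subgroup.centralizer ((P : Subgroup G) : Set G) ∧ x⁻¹ * c ∈ N := by
  obtain ⟨c, hc, hcN⟩ := hyp.cent x
  refine ⟨c, ?_, hc, hcN⟩
  have h1 : c = x * (x⁻¹ * c) := by group
  rw [h1]
  exact H.mul_mem hx (h hcN)

theorem Hyp.idxH (hyp : Hyp p P N) {H : Subgroup G} (h : N ≤ H) : ¬ p ∣ N.relIndex H := by
  intro hd
  have := Subgroup.relIndex_mul_index h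
  exact hyp.idx (hd.trans (Dvd.intro _ this))

theorem Hyp.good (hyp : Hyp p P N) (hM : IsPModular p M) {H : Subgroup G} (h : N ≤ H)
    {n : ℕ} (hsol : ∀ x ∈ derivedSeries H n, (x : G) ∈ N) : Good M N H h :=
  good_solv hM P H n N h hyp.le (fun x _ m hm => hyp.normal.conj_mem m hm x) (hyp.idxH h)
    (fun x hx => hyp.centH h x hx) hsol

/-- cyclic quotients -/
theorem Hyp.good_cyc (hyp : Hyp p P N) (hM : IsPModular p M) (x : G) :
    Good M N (N ⊔ Subgroup.zpowers x) le_sup_left := by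
  haveI := hyp.normal
  apply good_ab hM P le_sup_left hyp.le (fun x _ m hm => hyp.normal.conj_mem m hm x)
    (hyp.idxH le_sup_left) _ (fun y hy => hyp.centH le_sup_left y hy)
  intro a ha b hb
  obtain ⟨m, hm, c, ⟨i, rfl⟩, rfl⟩ := Subgroup.mem_sup_of_normal_left.mp ha
  obtain ⟨m', hm', c', ⟨j, rfl⟩, rfl⟩ := Subgroup.mem_sup_of_normal_left.mp hb
  rw [← QuotientGroup.eq_one_iff]
  have h1 : (m : G ⧸ N) = 1 := (QuotientGroup.eq_one_iff m).mpr hm
  have h2 : (m' : G ⧸ N) = 1 := (QuotientGroup.eq_one_iff m').mpr hm'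
  simp only [QuotientGroup.mk_mul, QuotientGroup.mk_inv, h1, h2, one_mul]
  have h3 : ((x ^ i : G) : G ⧸ N) * ((x ^ j : G) : G ⧸ N) = ((x ^ j : G) : G ⧸ N) * ((x ^ i : G) : G ⧸ N) := by
    rw [← QuotientGroup.mk_mul, ← QuotientGroup.mk_mul, ← zpow_add, ← zpow_add, add_comm]
  rw [h3, inv_mul_cancel]

/-- the restriction of a principal block character to an intermediate abelian extension -/
theorem Hyp.claim' (hyp : Hyp p P N) (hM : IsPModular p M) {H K : Subgroup G} (h : N ≤ H)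
    (hNK : N ≤ K) (hKH : K ≤ H) (hab : ∀ a ∈ K, ∀ b ∈ K, (a * b)⁻¹ * (b * a) ∈ N)
    {ψ : IrrCharacter H} (hψ : ψ ∈ principalBlock M H) {θ : IrrCharacter N}
    (hext : ∀ n : N, (ψ : H → ℂ) (Subgroup.inclusion h n) = (θ : N → ℂ) n)
    {T : IrrCharacter K} (hT : T ∈ principalBlock M K)
    (hTe : ∀ n : N, (T : K → ℂ) (Subgroup.inclusion hNK n) = (θ : N → ℂ) n) (y : K) :
    (ψ : H → ℂ) (Subgroup.inclusion hKH y) = (T : K → ℂ) y := by
  classical
  haveI := hyp.normal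
  haveI hN' : (N.subgroupOf K).Normal := hyp.normal.subgroupOf K
  haveI : Fintype (N.subgroupOf K) := Fintype.ofFinite _
  haveI : Fintype (K ⧸ N.subgroupOf K) := Fintype.ofFinite _
  let e : N.subgroupOf K ≃* N := Subgroup.subgroupOfEquivOfLe hNK
  obtain ⟨θ', hθ'⟩ : ∃ θ' : IrrCharacter (N.subgroupOf K), θ' = irrEquiv e θ := ⟨_, rfl⟩
  -- restriction of ψ
  have hres : IsCharacter K (fun k : K => (ψ : H → ℂ) (Subgroup.inclusion hKH k)) :=
    isCharacter_comp (irr_isCharacter ψ.2) (Subgroup.inclusion hKH)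
  have hresN : ∀ n : N.subgroupOf K, (ψ : H → ℂ) (Subgroup.inclusion hKH n) = (θ' : N.subgroupOf K → ℂ) n := by
    intro n
    rw [hθ']
    exact hext (e n)
  have hirr : IsIrrCharacter K (fun k : K => (ψ : H → ℂ) (Subgroup.inclusion hKH k)) := by
    apply CfsgLib.Extend.irr_of_restrict hres (N.subgroupOf K)
    have h1 : (fun n : N.subgroupOf K => (ψ : H → ℂ) (Subgroup.inclusion hKH n)) =
        (θ' : N.subgroupOf K → ℂ) := funext hresN
    rw [h1]
    exact θ'.2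
  obtain ⟨ψ', hψ'⟩ : ∃ ψ' : IrrCharacter K,
      (ψ' : K → ℂ) = fun k : K => (ψ : H → ℂ) (Subgroup.inclusion hKH k) := ⟨⟨_, hirr⟩, rfl⟩
  have hab' : ∀ a b : K ⧸ N.subgroupOf K, a * b = b * a := by
    intro a b
    obtain ⟨a, rfl⟩ := QuotientGroup.mk_surjective a
    obtain ⟨b, rfl⟩ := QuotientGroup.mk_surjective b
    rw [← QuotientGroup.mk_mul, ← QuotientGroup.mk_mul, QuotientGroup.eq, Subgroup.mem_subgroupOf]
    exact hab a a.2 b b.2
  obtain ⟨ξ, hξ⟩ := exists_twist (N.subgroupOf K) hab' T ψ' θ'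
    (fun n => by rw [hθ']; exact hTe (e n)) (fun n => by rw [hψ']; exact hresN n)
  have hξ1 : (ξ : K ⧸ N.subgroupOf K → ℂ) = fun _ => 1 := by
    apply twist_trivial_aux hM (N.subgroupOf K) (hyp.idxH hNK) hab'
      {c : K | (c : G) ∈ Subgroup.centralizer ((P : Subgroup G) : Set G)} _
      (χ := T) (fun c hc => val_sub hM P (hyp.le.trans hNK) hT c hc)
    · intro c hc
      rw [← hξ]
      have h1 := val_sub hM P (hyp.le.trans h) hψ (Subgroup.inclusion hKH c) hc
      rw [hψ']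
      exact h1
    · intro g
      obtain ⟨c, hcK, hcC, hcN⟩ := hyp.centH hNK g g.2
      refine ⟨⟨c, hcK⟩, hcC, ?_⟩
      symm
      rw [QuotientGroup.eq, Subgroup.mem_subgroupOf]
      exact hcN
  have h2 : (ψ' : K → ℂ) y = (T : K → ℂ) y := by
    rw [hξ, mulI_apply, hξ1, mul_one]
  rw [← h2, hψ']

theorem cyc_ab (N : Subgroup G) [N.Normal] (x : G) : ∀ a ∈ N ⊔ Subgroup.zpowers x,
    ∀ b ∈ N ⊔ Subgroup.zpowers x, (a * b)⁻¹ * (b * a) ∈ N := by
  intro a ha b hb
  obtain ⟨m, hm, c, ⟨i, rfl⟩, rfl⟩ := Subgroup.mem_sup_of_normal_left.mp ha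
  obtain ⟨m', hm', c', ⟨j, rfl⟩, rfl⟩ := Subgroup.mem_sup_of_normal_left.mp hb
  rw [← QuotientGroup.eq_one_iff]
  have h1 : (m : G ⧸ N) = 1 := (QuotientGroup.eq_one_iff m).mpr hm
  have h2 : (m' : G ⧸ N) = 1 := (QuotientGroup.eq_one_iff m').mpr hm'
  simp only [QuotientGroup.mk_mul, QuotientGroup.mk_inv, h1, h2, one_mul]
  have h3 : ((x ^ i : G) : G ⧸ N) * ((x ^ j : G) : G ⧸ N) = ((x ^ j : G) : G ⧸ N) * ((x ^ i : G) : G ⧸ N) := by
    rw [← QuotientGroup.mk_mul, ← QuotientGroup.mk_mul, ← zpow_add, ← zpow_add, add_comm]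
  rw [h3, inv_mul_cancel]

/-- a value system extending a principal block character -/
structure Sys (M : Ideal AlgInt) (N : Subgroup G) (θ : N → ℂ) (X : G → ℂ) : Prop where
  ex : ∀ x : G, ∃ T : IrrCharacter ↥(N ⊔ Subgroup.zpowers x), T ∈ principalBlock M _ ∧
    (∀ n : N, (T : ↥(N ⊔ Subgroup.zpowers x) → ℂ) (Subgroup.inclusion le_sup_left n) = θ n) ∧
    ∀ y : ↥(N ⊔ Subgroup.zpowers x), (T : ↥(N ⊔ Subgroup.zpowers x) → ℂ) y = X y
  eq : ∀ (H : Subgroup G) (h : N ≤ H) (ψ : IrrCharacter H), ψ ∈ principalBlock M H →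
    (∀ n : N, (ψ : H → ℂ) (Subgroup.inclusion h n) = θ n) → ∀ y : H, (ψ : H → ℂ) y = X y

theorem Hyp.sys (hyp : Hyp p P N) (hM : IsPModular p M) {θ : IrrCharacter N}
    (hθ : θ ∈ principalBlock M N) : ∃ X : G → ℂ, Sys M N (θ : N → ℂ) X := by
  classical
  haveI := hyp.normal
  have h1 := fun x : G => (hyp.good_cyc hM x).ext θ hθ
  choose T hT hTe using h1
  have hmem : ∀ x : G, x ∈ N ⊔ Subgroup.zpowers x := fun x =>
    (le_sup_right : Subgroup.zpowers x ≤ _) (Subgroup.mem_zpowers x)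
  have key : ∀ (H : Subgroup G) (h : N ≤ H) (ψ : IrrCharacter H), ψ ∈ principalBlock M H →
      (∀ n : N, (ψ : H → ℂ) (Subgroup.inclusion h n) = (θ : N → ℂ) n) →
      ∀ y : H, (ψ : H → ℂ) y = (T y : ↥(N ⊔ Subgroup.zpowers (y : G)) → ℂ) ⟨(y : G), hmem y⟩ := by
    intro H h ψ hψ hext y
    have hKH : N ⊔ Subgroup.zpowers (y : G) ≤ H := sup_le h (by rw [Subgroup.zpowers_le]; exact y.2)
    exact hyp.claim' hM h le_sup_left hKH (cyc_ab N y) hψ hext (hT y) (hTe y) ⟨(y : G), hmem y⟩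
  refine ⟨fun x => (T x : ↥(N ⊔ Subgroup.zpowers x) → ℂ) ⟨x, hmem x⟩, ?_, key⟩
  intro x
  exact ⟨T x, hT x, hTe x, key _ le_sup_left (T x) (hT x) (hTe x)⟩

theorem Sys.theta_inv {θ : N → ℂ} {X : G → ℂ} (hN : N.Normal) (h : Sys M N θ X) (g : G) (n : N) :
    θ ⟨g * n * g⁻¹, hN.conj_mem n n.2 g⟩ = θ n := by
  obtain ⟨T, hT, hTe, _⟩ := h.ex g
  haveI := Fintype.ofFinite ↥(N ⊔ Subgroup.zpowers g)
  rw [← hTe, ← hTe]
  have hg : g ∈ N ⊔ Subgroup.zpowers g :=
    (le_sup_right : Subgroup.zpowers g ≤ _) (Subgroup.mem_zpowers g)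
  have h1 := CharBasic.irr_classFun T.2 (Subgroup.inclusion le_sup_left n) ⟨g, hg⟩
  rw [← h1]
  congr 1

theorem Sys.classFun {θ : IrrCharacter N} {X : G → ℂ} (hN : N.Normal) (h : Sys M N (θ : N → ℂ) X) :
    IsClassFunction G X := by
  intro x g
  obtain ⟨T, hT, hTe, hTX⟩ := h.ex x
  haveI : ∀ x : G, Fintype ↥(N ⊔ Subgroup.zpowers x) := fun x => Fintype.ofFinite _
  have hmem : ∀ x : G, x ∈ N ⊔ Subgroup.zpowers x := fun x =>
    (le_sup_right : Subgroup.zpowers x ≤ _) (Subgroup.mem_zpowers x)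
  have ha : ∀ y ∈ N ⊔ Subgroup.zpowers (g * x * g⁻¹), g⁻¹ * y * g ∈ N ⊔ Subgroup.zpowers x := by
    intro y hy
    have h1 : N ⊔ Subgroup.zpowers (g * x * g⁻¹) ≤
        (N ⊔ Subgroup.zpowers x).comap (MulAut.conj g⁻¹).toMonoidHom := by
      apply sup_le
      · intro m hm
        rw [Subgroup.mem_comap]
        exact (le_sup_left : N ≤ _) (hN.conj_mem m hm g⁻¹)
      · rw [Subgroup.zpowers_le, Subgroup.mem_comap]
        change g⁻¹ * (g * x * g⁻¹) * g⁻¹⁻¹ ∈ _
        have h2 : g⁻¹ * (g * x * g⁻¹) * g⁻¹⁻¹ = x := by group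
        rw [h2]; exact hmem x
    have h2 := h1 hy
    rw [Subgroup.mem_comap] at h2
    change g⁻¹ * y * g⁻¹⁻¹ ∈ _ at h2
    rwa [inv_inv] at h2
  have hb : ∀ y ∈ N ⊔ Subgroup.zpowers x, g * y * g⁻¹ ∈ N ⊔ Subgroup.zpowers (g * x * g⁻¹) := by
    intro y hy
    have h1 : N ⊔ Subgroup.zpowers x ≤
        (N ⊔ Subgroup.zpowers (g * x * g⁻¹)).comap (MulAut.conj g).toMonoidHom := by
      apply sup_le
      · intro m hm
        rw [Subgroup.mem_comap]
        exact (le_sup_left : N ≤ _) (hN.conj_mem m hm g)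
      · rw [Subgroup.zpowers_le, Subgroup.mem_comap]
        exact hmem (g * x * g⁻¹)
    exact h1 hy
  let e : ↥(N ⊔ Subgroup.zpowers (g * x * g⁻¹)) ≃* ↥(N ⊔ Subgroup.zpowers x) :=
    { toFun := fun y => ⟨g⁻¹ * y * g, ha y y.2⟩
      invFun := fun y => ⟨g * y * g⁻¹, hb y y.2⟩
      left_inv := fun y => Subtype.ext (by
        change g * (g⁻¹ * (y : G) * g) * g⁻¹ = y
        group)
      right_inv := fun y => Subtype.ext (by
        change g⁻¹ * (g * (y : G) * g⁻¹) * g = y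
        group)
      map_mul' := fun y z => Subtype.ext (by
        change g⁻¹ * ((y : G) * z) * g = (g⁻¹ * (y : G) * g) * (g⁻¹ * (z : G) * g)
        group) }
  have h3 := h.eq _ le_sup_left (irrEquiv e T) ((principal_equiv e T).mpr hT) (by
    intro n
    change (T : ↥(N ⊔ Subgroup.zpowers x) → ℂ) (e (Subgroup.inclusion le_sup_left n)) = _
    have h4 : e (Subgroup.inclusion le_sup_left n) =
        Subgroup.inclusion le_sup_left (⟨g⁻¹ * n * g⁻¹⁻¹, hN.conj_mem n n.2 g⁻¹⟩ : N) :=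
      Subtype.ext (by
        change g⁻¹ * (n : G) * g = g⁻¹ * n * g⁻¹⁻¹
        rw [inv_inv])
    rw [h4, hTe]
    exact h.theta_inv hN g⁻¹ n) ⟨g * x * g⁻¹, hmem _⟩
  rw [← h3]
  change (T : ↥(N ⊔ Subgroup.zpowers x) → ℂ) (e ⟨g * x * g⁻¹, hmem _⟩) = X x
  rw [hTX]
  congr 1
  change g⁻¹ * (g * x * g⁻¹) * g = x
  group

theorem solv_aux (N E : Subgroup G) [hN : N.Normal] [Group.IsSolvable E] :
    ∃ n : ℕ, ∀ x ∈ derivedSeries ↥(N ⊔ E) n, (x : G) ∈ N := by
  have h1 : ((N ⊔ E).map (QuotientGroup.mk' N)) = E.map (QuotientGroup.mk' N) := by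
    rw [Subgroup.map_sup]
    have h2 : N.map (QuotientGroup.mk' N) = ⊥ := by
      rw [Subgroup.map_eq_bot_iff, QuotientGroup.ker_mk']
    rw [h2, bot_sup_eq]
  haveI h3 : Group.IsSolvable (E.map (QuotientGroup.mk' N)) :=
    solvable_of_surjective ((QuotientGroup.mk' N).subgroupMap_surjective E)
  haveI h4 : Group.IsSolvable ((N ⊔ E).map (QuotientGroup.mk' N)) := by rw [h1]; exact h3
  obtain ⟨n, hn⟩ := h4.solvable
  refine ⟨n, ?_⟩
  intro x hx
  have h5 := map_derivedSeries_le_derivedSeries ((QuotientGroup.mk' N).subgroupMap (N ⊔ E)) n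
  rw [hn] at h5
  have h6 := h5 ⟨x, hx, rfl⟩
  rw [Subgroup.mem_bot] at h6
  have h7 := congrArg Subtype.val h6
  exact (QuotientGroup.eq_one_iff (x : G)).mp h7

theorem Hyp.gen (hyp : Hyp p P N) (hM : IsPModular p M) {θ : IrrCharacter N}
    (hθ : θ ∈ principalBlock M N) {X : G → ℂ} (h : Sys M N (θ : N → ℂ) X) :
    IsGeneralizedCharacter G X := by
  haveI := hyp.normal
  apply CfsgLib.BrauerInd.gen_of_elementary (h.classFun hyp.normal)
  intro E q hq hE
  haveI := CfsgLib.Monomial.elementary_nilpotent hq hE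
  haveI : Group.IsSolvable E := inferInstance
  obtain ⟨n, hn⟩ := solv_aux N E
  obtain ⟨ψ, hψ, hψe⟩ := (hyp.good hM (le_sup_left : N ≤ N ⊔ E) hn).ext θ hθ
  have h1 : (fun e : E => X e) = fun e : E => (ψ : ↥(N ⊔ E) → ℂ) (Subgroup.inclusion le_sup_right e) := by
    funext e
    rw [h.eq (N ⊔ E) le_sup_left ψ hψ hψe]
    rfl
  rw [h1]
  haveI := Fintype.ofFinite E
  haveI := Fintype.ofFinite ↥(N ⊔ E)
  exact gen_of_char (isCharacter_comp (irr_isCharacter ψ.2) (Subgroup.inclusion (le_sup_right : E ≤ N ⊔ E)))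

theorem Sys.norm {θ : IrrCharacter N} {X : G → ℂ} (hN : N.Normal) (h : Sys M N (θ : N → ℂ) X) :
    classInner X X = 1 := by
  classical
  haveI := Fintype.ofFinite N
  have h1 : Gallagher.avg N (fun g => X g * conj (X g)) = fun _ => 1 := by
    funext g
    obtain ⟨T, hT, hTe, hTX⟩ := h.ex g
    have hmem : g ∈ N ⊔ Subgroup.zpowers g :=
      (le_sup_right : Subgroup.zpowers g ≤ _) (Subgroup.mem_zpowers g)
    haveI hN' : (N.subgroupOf (N ⊔ Subgroup.zpowers g)).Normal := hN.subgroupOf _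
    haveI := Fintype.ofFinite (N.subgroupOf (N ⊔ Subgroup.zpowers g))
    haveI := Fintype.ofFinite ↥(N ⊔ Subgroup.zpowers g)
    let e : N.subgroupOf (N ⊔ Subgroup.zpowers g) ≃* N := Subgroup.subgroupOfEquivOfLe le_sup_left
    have h2 : IsIrrCharacter (N.subgroupOf (N ⊔ Subgroup.zpowers g))
        (fun n : N.subgroupOf (N ⊔ Subgroup.zpowers g) => (T : ↥(N ⊔ Subgroup.zpowers g) → ℂ) n) := by
      have h3 : (fun n : N.subgroupOf (N ⊔ Subgroup.zpowers g) => (T : ↥(N ⊔ Subgroup.zpowers g) → ℂ) n) =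
          (irrEquiv e θ : N.subgroupOf (N ⊔ Subgroup.zpowers g) → ℂ) := by
        funext n
        exact hTe (e n)
      rw [h3]
      exact (irrEquiv e θ).2
    have h4 := congrFun (Gallagher.avg_norm_sq (N.subgroupOf (N ⊔ Subgroup.zpowers g))
      (irr_isCharacter T.2) h2) ⟨g, hmem⟩
    rw [← h4]
    unfold Gallagher.avg
    congr 1
    · rw [Nat.card_congr e.toEquiv]
    · symm
      refine Fintype.sum_equiv e.toEquiv _ _ fun n => ?_
      rw [hTX]
      rfl
  have h5 := Gallagher.ci_avg N (fun _ => (1 : ℂ)) (fun g => X g * conj (X g))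
  rw [h1] at h5
  have h6 : Gallagher.avg N (fun _ : G => (1 : ℂ)) = fun _ => 1 := by
    funext g
    unfold Gallagher.avg
    rw [Finset.sum_const, nsmul_eq_mul, Finset.card_univ, ← Nat.card_eq_fintype_card, mul_one]
    exact inv_mul_cancel₀ (by exact_mod_cast Nat.card_pos.ne')
  have h7 : classInner (fun _ : G => (1 : ℂ)) (fun _ => 1) = 1 := irr_inner_self (triv G).2
  rw [h6, h7] at h5
  rw [h5]
  unfold classInner
  congr 1
  apply Finset.sum_congr rfl
  intro g _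
  simp [mul_comm]

theorem Hyp.irr (hyp : Hyp p P N) (hM : IsPModular p M) {θ : IrrCharacter N}
    (hθ : θ ∈ principalBlock M N) {X : G → ℂ} (h : Sys M N (θ : N → ℂ) X) :
    IsIrrCharacter G X := by
  apply irr_of_gen_norm_one_pos (hyp.gen hM hθ h) (h.norm hyp.normal)
  obtain ⟨T, hT, hTe, hTX⟩ := h.ex 1
  have h1 := hTX 1
  rw [Subgroup.coe_one] at h1
  rw [← h1]
  haveI := Fintype.ofFinite ↥(N ⊔ Subgroup.zpowers (1 : G))
  obtain ⟨m, hm0, hm⟩ := CharBasic.irr_one_nat T.2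
  rw [hm]
  simpa using hm0

/-- class lengths have the same `p`-part -/
theorem Hyp.class_index (hyp : Hyp p P N) {H : Subgroup G} (hNH : N ≤ H) (g : H) :
    (Subgroup.centralizer ({g} : Set H)).index.factorization p =
      (Subgroup.centralizer ({(g : G)} : Set G)).index.factorization p := by
  haveI := hyp.normal
  have hpp : p.Prime := Fact.out
  set C := Subgroup.centralizer ({(g : G)} : Set G) with hC
  set D := Subgroup.centralizer ({g} : Set H) with hD
  have h1 : D = C.subgroupOf H := by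
    ext x
    rw [Subgroup.mem_subgroupOf, hC, hD, Subgroup.mem_centralizer_singleton_iff,
      Subgroup.mem_centralizer_singleton_iff]
    exact ⟨fun h => congrArg Subtype.val h, fun h => Subtype.ext h⟩
  have h2 : Nat.card D * D.index = Nat.card H := Subgroup.card_mul_index D
  have h3 : Nat.card C * C.index = Nat.card G := Subgroup.card_mul_index C
  have h4 : Nat.card H * H.index = Nat.card G := Subgroup.card_mul_index H
  have h5 : Nat.card (H.subgroupOf C) * H.relIndex C = Nat.card C :=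
    Subgroup.card_mul_index (H.subgroupOf C)
  have h6 : Nat.card (H.subgroupOf C) = Nat.card D := by
    rw [h1, ← Subgroup.inf_subgroupOf_left H C, ← Subgroup.inf_subgroupOf_left C H, inf_comm C H,
      Nat.card_congr (Subgroup.subgroupOfEquivOfLe (inf_le_right : H ⊓ C ≤ C)).toEquiv,
      Nat.card_congr (Subgroup.subgroupOfEquivOfLe (inf_le_left : H ⊓ C ≤ H)).toEquiv]
  have h7 : ¬ p ∣ H.index := fun h => hyp.idx (h.trans (Subgroup.index_dvd_of_le hNH))
  have h8 : ¬ p ∣ H.relIndex C := fun h => hyp.idx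
    ((h.trans (Subgroup.relIndex_dvd_of_le_left C hNH)).trans (Subgroup.relIndex_dvd_index_of_normal N C))
  have hf : ∀ {a b c : ℕ}, a * b = c → c ≠ 0 → c.factorization p = a.factorization p + b.factorization p := by
    intro a b c h hc
    subst h
    rw [Nat.factorization_mul (by rintro rfl; simp at hc) (by rintro rfl; simp at hc)]
    rfl
  have e2 := hf h2 Nat.card_pos.ne'
  have e3 := hf h3 Nat.card_pos.ne'
  have e4 := hf h4 Nat.card_pos.ne'
  have e5 := hf h5 Nat.card_pos.ne'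
  rw [h6] at e5
  have e7 := Nat.factorization_eq_zero_of_not_dvd h7
  have e8 := Nat.factorization_eq_zero_of_not_dvd h8
  omega

theorem Hyp.mem (hyp : Hyp p P N) (hM : IsPModular p M) {θ : IrrCharacter N}
    {X : G → ℂ} (h : Sys M N (θ : N → ℂ) X) (hX : IsIrrCharacter G X) :
    (⟨X, hX⟩ : IrrCharacter G) ∈ principalBlock M G := by
  have hp := isPrime_of_modular hM
  rw [mem_principal]
  intro g
  obtain ⟨T, hT, hTe, hTX⟩ := h.ex g
  have hmem : g ∈ N ⊔ Subgroup.zpowers g :=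
    (le_sup_right : Subgroup.zpowers g ≤ _) (Subgroup.mem_zpowers g)
  haveI := Fintype.ofFinite ↥(N ⊔ Subgroup.zpowers g)
  have h1 := hT ⟨g, hmem⟩
  have h2 := hyp.class_index (le_sup_left : N ≤ N ⊔ Subgroup.zpowers g) ⟨g, hmem⟩
  have hT1 : (T : ↥(N ⊔ Subgroup.zpowers g) → ℂ) 1 = X 1 := hTX 1
  have hTg : (T : ↥(N ⊔ Subgroup.zpowers g) → ℂ) ⟨g, hmem⟩ = X g := hTX ⟨g, hmem⟩
  unfold centralChar at h1 ⊢
  rw [hT1, hTg] at h1
  have h3 : MemLocalRing M (((Subgroup.centralizer ({g} : Set G)).index : ℂ) /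
      ((Subgroup.centralizer ({(⟨g, hmem⟩ : ↥(N ⊔ Subgroup.zpowers g))} : Set ↥(N ⊔ Subgroup.zpowers g))).index : ℂ)) :=
    ring_div_nat hM Subgroup.index_ne_zero_of_finite h2.le
  have h4 : ((Subgroup.centralizer ({(⟨g, hmem⟩ : ↥(N ⊔ Subgroup.zpowers g))} : Set ↥(N ⊔ Subgroup.zpowers g))).index : ℂ) ≠ 0 := by
    exact_mod_cast Subgroup.index_ne_zero_of_finite
  have h0 : X 1 ≠ 0 := CharBasic.irr_one_ne_zero hX
  have h5 := ideal_mul_left hp h3 h1
  generalize ((Subgroup.centralizer ({(⟨g, hmem⟩ : ↥(N ⊔ Subgroup.zpowers g))} : Set ↥(N ⊔ Subgroup.zpowers g))).index : ℂ) = a at h4 h5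
  generalize ((Subgroup.centralizer ({g} : Set G)).index : ℂ) = b at h5 ⊢
  have h6 : b / a * (a * 1 / 1 - a * X g / X 1) = b * 1 / 1 - b * X g / X 1 := by
    field_simp
  rw [h6] at h5
  exact h5

/-- the unique extension: characters of the principal block over `θ` -/
theorem Hyp.over [Fintype N] (hyp : Hyp p P N) (hM : IsPModular p M) {θ : IrrCharacter N}
    {χ : IrrCharacter G} (hχ : χ ∈ principalBlock M G) (hχN : ∀ n : N, (χ : G → ℂ) n = (θ : N → ℂ) n)
    {ψ : IrrCharacter G} (hψ : ψ ∈ principalBlock M G)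
    (hin : classInner (fun n : N => (ψ : G → ℂ) n) (θ : N → ℂ) ≠ 0) : ψ = χ := by
  classical
  have hp := isPrime_of_modular hM
  haveI := hyp.normal
  haveI := Fintype.ofFinite (G ⧸ N)
  have h1 : (fun n : N => (χ : G → ℂ) n) = (θ : N → ℂ) := funext hχN
  have h2 : IsIrrCharacter N (fun n : N => (χ : G → ℂ) n) := by rw [h1]; exact θ.2
  obtain ⟨hμ, hμχ⟩ := Gallagher.gallagher_exists N χ.2 h2 ψ.2 (by rw [h1]; exact hin)
  have hker := fun n hn => Gallagher.avg_ker N (χ := (χ : G → ℂ)) (ψ := (ψ : G → ℂ)) n hn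
  generalize Gallagher.avg N (fun g => (ψ : G → ℂ) g * conj ((χ : G → ℂ) g)) = μ at hμ hμχ hker
  obtain ⟨ξ, hξ⟩ := exists_defl N ⟨μ, hμ⟩ hker
  have hξμ : ∀ g : G, μ g = (ξ : G ⧸ N → ℂ) (g : G ⧸ N) := by
    intro g
    have h3 := congrArg (fun f : IrrCharacter G => (f : G → ℂ) g) hξ
    exact h3.symm
  have hχ0 := CharBasic.irr_one_ne_zero χ.2
  have hξ0 := CharBasic.irr_one_ne_zero ξ.2
  have key : ∀ y : G ⧸ N, MemLocalIdeal M ((ξ : G ⧸ N → ℂ) y / (ξ : G ⧸ N → ℂ) 1 - 1) := by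
    intro y
    obtain ⟨g, rfl⟩ := QuotientGroup.mk_surjective y
    obtain ⟨c, hc, hcN⟩ := hyp.cent g
    have h4 : (g : G ⧸ N) = (c : G ⧸ N) := by rw [QuotientGroup.eq]; exact hcN
    rw [h4]
    have h5 := val_congr hM hχ (cent_index hc)
    have h6 := val_congr hM hψ (cent_index hc)
    rw [← hμχ] at h6
    simp only [hξμ] at h6
    rw [QuotientGroup.mk_one] at h6
    set w := (χ : G → ℂ) c / (χ : G → ℂ) 1 with hw
    set z := (ξ : G ⧸ N → ℂ) (c : G ⧸ N) / (ξ : G ⧸ N → ℂ) 1 with hz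
    have h7 : (ξ : G ⧸ N → ℂ) (c : G ⧸ N) * (χ : G → ℂ) c / ((ξ : G ⧸ N → ℂ) 1 * (χ : G → ℂ) 1) = z * w := by
      rw [hw, hz]; field_simp
    rw [h7] at h6
    have hzR : MemLocalRing M z := by
      rw [hz]
      obtain ⟨d, hd0, hd⟩ := CharBasic.irr_one_nat ξ.2
      rw [hd, div_eq_mul_inv]
      apply ring_mul hp (irr_ring hp ξ _)
      apply ring_inv_nat hM
      intro hpd
      have h8 := CfsgLib.CharInt2.charDegree_dvd_card ξ.2
      have h9 := CfsgLib.CharInt.irr_one_eq_charDegree ξ.2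
      rw [hd] at h9
      have h10 : d = charDegree (ξ : G ⧸ N → ℂ) := by exact_mod_cast h9
      rw [← h10] at h8
      exact hyp.idx (hpd.trans h8)
    have h8 : z - 1 = (z * w - 1) - z * (w - 1) := by ring
    rw [h8]
    exact ideal_sub hp h6 (ideal_mul_left hp hzR h5)
  -- the character `ξ` is trivial
  have hξt : (ξ : G ⧸ N → ℂ) = fun _ => 1 := by
    by_contra hne
    have h11 : classInner (ξ : G ⧸ N → ℂ) (triv (G ⧸ N) : G ⧸ N → ℂ) = 0 :=
      irr_inner_ne ξ.2 (triv (G ⧸ N)).2 hne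
    have h12 : ∑ y : G ⧸ N, (ξ : G ⧸ N → ℂ) y = 0 := by
      unfold classInner at h11
      have h13 : (Nat.card (G ⧸ N) : ℂ)⁻¹ ≠ 0 := inv_ne_zero (by exact_mod_cast Nat.card_pos.ne')
      have h14 := (mul_eq_zero.mp h11).resolve_left (by simpa using h13)
      rw [← h14]
      apply Finset.sum_congr rfl
      intro y _
      rw [triv_apply, map_one, mul_one]
    have h13 : MemLocalIdeal M (∑ y : G ⧸ N, ((ξ : G ⧸ N → ℂ) y / (ξ : G ⧸ N → ℂ) 1 - 1)) :=
      ideal_sum hp _ _ fun y _ => key y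
    rw [Finset.sum_sub_distrib, ← Finset.sum_div, h12, zero_div, zero_sub, Finset.sum_const,
      nsmul_eq_mul, mul_one, Finset.card_univ, ← Nat.card_eq_fintype_card] at h13
    have h14 := ideal_neg h13
    rw [neg_neg] at h14
    exact hyp.idx ((ideal_nat_iff hM).mp h14)
  apply Subtype.ext
  rw [← hμχ]
  funext g
  change μ g * (χ : G → ℂ) g = (χ : G → ℂ) g
  rw [hξμ, hξt, one_mul]

theorem Hyp.main [Fintype N] (hyp : Hyp p P N) (hM : IsPModular p M) :
    (∀ χ ∈ principalBlock M G, ∃ θ ∈ principalBlock M N, ∀ n : N, (χ : G → ℂ) n = (θ : N → ℂ) n) ∧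
    ∀ θ ∈ principalBlock M N, ∃! χ : IrrCharacter G, χ ∈ principalBlock M G ∧
      ∀ n : N, (χ : G → ℂ) n = (θ : N → ℂ) n := by
  classical
  have hp := isPrime_of_modular hM
  haveI := hyp.normal
  have hB := principal_isPBlock M G
  have hb := principal_isPBlock M N
  have hcov : Cov N (principalBlock M G) (principalBlock M N) := by
    refine ⟨triv G, sameBlock_refl hp _, triv N, sameBlock_refl hp _, ?_⟩
    have h1 : (fun n : N => (triv G : G → ℂ) n) = (triv N : N → ℂ) := rfl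
    rw [h1, irr_inner_self (triv N).2]
    exact one_ne_zero
  have hex : ∀ θ ∈ principalBlock M N, ∃ χ : IrrCharacter G, χ ∈ principalBlock M G ∧
      ∀ n : N, (χ : G → ℂ) n = (θ : N → ℂ) n := by
    intro θ hθ
    obtain ⟨X, hX⟩ := hyp.sys hM hθ
    have hXi := hyp.irr hM hθ hX
    refine ⟨⟨X, hXi⟩, hyp.mem hM hX hXi, ?_⟩
    intro n
    obtain ⟨T, hT, hTe, hTX⟩ := hX.ex 1
    rw [← hTe, hTX]
    rfl
  refine ⟨?_, ?_⟩
  · intro χ hχ
    obtain ⟨θ, hθ, h1⟩ := cov_under N hM hB hb hcov hχ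
    obtain ⟨χ', hχ', h2⟩ := hex θ hθ
    have h3 := hyp.over hM hχ' h2 hχ h1
    subst h3
    exact ⟨θ, hθ, h2⟩
  · intro θ hθ
    obtain ⟨χ, hχ, h2⟩ := hex θ hθ
    refine ⟨χ, ⟨hχ, h2⟩, ?_⟩
    rintro χ' ⟨hχ', h3⟩
    apply hyp.over hM hχ h2 hχ'
    have h4 : (fun n : N => (χ' : G → ℂ) n) = (θ : N → ℂ) := funext h3
    rw [h4, irr_inner_self θ.2]
    exact one_ne_zero

theorem s4551 (hM : IsPModular p M) (N : Subgroup G) [hN : N.Normal] [Fintype N]
    (hidx : ¬ p ∣ N.index) (P : Sylow p G)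
    (hsup : N ⊔ Subgroup.centralizer ((P : Subgroup G) : Set G) = ⊤) :
    (∀ χ ∈ principalBlock M G, ∃ θ ∈ principalBlock M N, ∀ n : N, (χ : G → ℂ) n = (θ : N → ℂ) n) ∧
    ∀ θ ∈ principalBlock M N, ∃! χ : IrrCharacter G, χ ∈ principalBlock M G ∧
      ∀ n : N, (χ : G → ℂ) n = (θ : N → ℂ) n := by
  have hyp : Hyp p P N := by
    refine ⟨hN, ?_, hidx, ?_⟩
    · -- P ≤ N
      have h1 : N.relIndex P ∣ N.index := Subgroup.relIndex_dvd_index_of_normal N P
      have h2 : N.relIndex P ∣ Nat.card P := Subgroup.relIndex_dvd_card N P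
      obtain ⟨k, hk⟩ := IsPGroup.iff_card.mp P.isPGroup'
      rw [hk] at h2
      obtain ⟨j, _, hj⟩ := (Nat.dvd_prime_pow Fact.out).mp h2
      rcases Nat.eq_zero_or_pos j with h3 | h3
      · rw [h3, pow_zero] at hj
        exact Subgroup.relIndex_eq_one.mp hj
      · exact absurd ((dvd_pow_self p h3.ne').trans (hj ▸ h1)) hidx
    · intro g
      have hg : g ∈ N ⊔ Subgroup.centralizer ((P : Subgroup G) : Set G) := by rw [hsup]; trivial
      obtain ⟨n, hn, c, hc, rfl⟩ := Subgroup.mem_sup_of_normal_left.mp hg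
      refine ⟨c, hc, ?_⟩
      have h1 : (n * c)⁻¹ * c = c⁻¹ * n⁻¹ * c⁻¹⁻¹ := by group
      rw [h1]
      exact hN.conj_mem _ (N.inv_mem hn) _
  exact hyp.main hM

end CfsgLib.AlpIso
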