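import Mathlib

/-! Two primes at distance at least four between `n` and `2 n`. -/

set_option autoImplicit false

namespace CfsgLib.H7Bert

open Nat

theorem small_prod (n : ℕ) (n_large : 2 < n) :
    ∏ p ∈ Finset.range (2 * n / 3 + 1), p ^ (centralBinom n).factorization p
      ≤ (2 * n) ^ sqrt (2 * n) * 4 ^ (2 * n / 3) := by
  have n_pos : 0 < n := (Nat.zero_le _).trans_lt n_large
  have n2_pos : 1 ≤ 2 * n := mul_pos (zero_lt_two' ℕ) n_pos
  let S := {p ∈ Finset.range (2 * n / 3 + 1) | Nat.Prime p}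
  let f x := x ^ n.centralBinom.factorization x
  have : ∏ x ∈ S, f x = ∏ x ∈ Finset.range (2 * n / 3 + 1), f x := by
    refine Finset.prod_filter_of_ne fun p _ h => ?_
    contrapose h; dsimp only [f]
    rw [factorization_eq_zero_of_not_prime n.centralBinom h, _root_.pow_zero]
  rw [← this, ← Finset.prod_filter_mul_prod_filter_not S (· ≤ sqrt (2 * n))]
  apply mul_le_mul'
  · refine (Finset.prod_le_prod' fun p _ => (?_ : f p ≤ 2 * n)).trans ?_
    · exact pow_factorization_choose_le (mul_pos two_pos n_pos)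
    have : (Finset.Icc 1 (sqrt (2 * n))).card = sqrt (2 * n) := by rw [card_Icc, Nat.add_sub_cancel]
    rw [Finset.prod_const]
    refine pow_right_mono₀ n2_pos ((Finset.card_le_card fun x hx => ?_).trans this.le)
    obtain ⟨h1, h2⟩ := Finset.mem_filter.1 hx
    exact Finset.mem_Icc.mpr ⟨(Finset.mem_filter.1 h1).2.one_lt.le, h2⟩
  · refine le_trans ?_ (primorial_le_four_pow (2 * n / 3))
    refine (Finset.prod_le_prod' fun p hp => (?_ : f p ≤ p)).trans ?_
    · obtain ⟨h1, h2⟩ := Finset.mem_filter.1 hp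
      refine (pow_right_mono₀ (Finset.mem_filter.1 h1).2.one_lt.le ?_).trans (pow_one p).le
      exact Nat.factorization_choose_le_one (sqrt_lt'.mp <| not_le.1 h2)
    refine Finset.prod_le_prod_of_subset_of_one_le' (Finset.filter_subset _ _) ?_
    exact fun p hp _ => (Finset.mem_filter.1 hp).2.one_lt.le

theorem centralBinom_le (n : ℕ) (n_large : 2 < n) (B : Finset ℕ)
    (hB : ∀ p : ℕ, p.Prime → n < p → p ≤ 2 * n → p ∈ B) :
    centralBinom n ≤ (2 * n) ^ sqrt (2 * n) * 4 ^ (2 * n / 3) * (2 * n) ^ B.card := by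
  classical
  have n_pos : 0 < n := (Nat.zero_le _).trans_lt n_large
  have n2_pos : 1 ≤ 2 * n := mul_pos (zero_lt_two' ℕ) n_pos
  let f x := x ^ n.centralBinom.factorization x
  have h0 : n.centralBinom = ∏ p ∈ Finset.range (2 * n + 1), f p := n.prod_pow_factorization_centralBinom.symm
  have hsub : Finset.range (2 * n / 3 + 1) ⊆ Finset.range (2 * n + 1) := by
    apply Finset.range_subset_range.mpr
    have := Nat.div_le_self (2 * n) 3
    omega
  rw [h0, ← Finset.prod_sdiff hsub, mul_comm]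
  refine Nat.mul_le_mul ?_ ?_
  · exact small_prod n n_large
  · have h1 : ∏ p ∈ Finset.range (2 * n + 1) \ Finset.range (2 * n / 3 + 1), f p =
        ∏ p ∈ (Finset.range (2 * n + 1) \ Finset.range (2 * n / 3 + 1)) ∩ B, f p := by
      symm
      apply Finset.prod_subset Finset.inter_subset_left
      intro p hp hpB
      rw [Finset.mem_sdiff, Finset.mem_range, Finset.mem_range, Nat.lt_succ_iff, not_lt] at hp
      have hpB' : p ∉ B := fun h => hpB (Finset.mem_inter.mpr ⟨by
        rw [Finset.mem_sdiff, Finset.mem_range, Finset.mem_range]; omega, h⟩)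
      show p ^ n.centralBinom.factorization p = 1
      by_cases hpp : p.Prime
      · have hpn : p ≤ n := by
          by_contra h
          exact hpB' (hB p hpp (by omega) hp.1)
        rw [factorization_centralBinom_of_two_mul_self_lt_three_mul n_large hpn (by omega), pow_zero]
      · rw [factorization_eq_zero_of_not_prime n.centralBinom hpp, pow_zero]
    rw [h1]
    refine (Finset.prod_le_prod' fun p _ => (?_ : f p ≤ 2 * n)).trans ?_
    · exact pow_factorization_choose_le (mul_pos two_pos n_pos)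
    rw [Finset.prod_const]
    exact pow_right_mono₀ n2_pos (Finset.card_le_card Finset.inter_subset_right)

theorem pow_ten_le (s : ℕ) (hs : 59 ≤ s) : s ^ 10 ≤ 2 ^ s := by
  induction s, hs using Nat.le_induction with
  | base => norm_num
  | succ s hs ih =>
    have h1 : (59 * (s + 1)) ^ 10 ≤ (60 * s) ^ 10 := Nat.pow_le_pow_left (by omega) 10
    rw [mul_pow, mul_pow] at h1
    have h2 : (60 : ℕ) ^ 10 ≤ 2 * 59 ^ 10 := by norm_num
    have h3 : 59 ^ 10 * (s + 1) ^ 10 ≤ 59 ^ 10 * (2 * s ^ 10) := by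
      calc 59 ^ 10 * (s + 1) ^ 10 ≤ 60 ^ 10 * s ^ 10 := h1
        _ ≤ 2 * 59 ^ 10 * s ^ 10 := Nat.mul_le_mul_right _ h2
        _ = 59 ^ 10 * (2 * s ^ 10) := by ring
    have h4 := Nat.le_of_mul_le_mul_left h3 (by norm_num)
    rw [pow_succ 2 s]
    omega

theorem main_ineq (n : ℕ) (hn : 1683 ≤ n) :
    n * ((2 * n) ^ sqrt (2 * n) * 4 ^ (2 * n / 3) * (2 * n) ^ 2) ≤ 4 ^ n := by
  set r := sqrt (2 * n) with hr
  have hr58 : 58 ≤ r := by
    rw [hr, Nat.le_sqrt]; omega
  have hr2 : r * r ≤ 2 * n := Nat.sqrt_le (2 * n)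
  have hr3 : 2 * n < (r + 1) ^ 2 := by
    rw [sq]; exact Nat.lt_succ_sqrt (2 * n)
  set t := n - 2 * n / 3 with ht
  have ht1 : 2 * n / 3 + t = n := by omega
  have ht2 : n ≤ 3 * t := by omega
  have key : (2 * n) ^ (r + 3) ≤ 4 ^ t := by
    have h1 : ((2 * n) ^ (r + 3)) ^ 10 ≤ (4 ^ t) ^ 10 := by
      calc ((2 * n) ^ (r + 3)) ^ 10 ≤ (((r + 1) ^ 2) ^ (r + 3)) ^ 10 :=
            Nat.pow_le_pow_left (Nat.pow_le_pow_left hr3.le _) _
        _ = ((r + 1) ^ 10) ^ (2 * (r + 3)) := by
            rw [← pow_mul, ← pow_mul, ← pow_mul]; congr 1; ring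
        _ ≤ (2 ^ (r + 1)) ^ (2 * (r + 3)) := Nat.pow_le_pow_left (pow_ten_le _ (by omega)) _
        _ = 2 ^ ((r + 1) * (2 * (r + 3))) := by rw [← pow_mul]
        _ ≤ 2 ^ (2 * t * 10) := by
            apply Nat.pow_le_pow_right (by norm_num)
            nlinarith
        _ = (4 ^ t) ^ 10 := by
            rw [show (4 : ℕ) = 2 ^ 2 by norm_num, ← pow_mul, ← pow_mul, mul_assoc]
    exact (Nat.pow_le_pow_iff_left (by norm_num)).mp h1
  calc n * ((2 * n) ^ r * 4 ^ (2 * n / 3) * (2 * n) ^ 2)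
      ≤ (2 * n) * ((2 * n) ^ r * 4 ^ (2 * n / 3) * (2 * n) ^ 2) := Nat.mul_le_mul_right _ (by omega)
    _ = (2 * n) ^ (r + 3) * 4 ^ (2 * n / 3) := by ring
    _ ≤ 4 ^ t * 4 ^ (2 * n / 3) := Nat.mul_le_mul_right _ key
    _ = 4 ^ n := by rw [← pow_add]; congr 1; omega

theorem two_primes (n : ℕ) (hn : 9 ≤ n) :
    ∃ p q : ℕ, p.Prime ∧ q.Prime ∧ n < p ∧ p + 4 ≤ q ∧ q ≤ 2 * n := by
  classical
  rcases Nat.lt_or_ge n 1683 with h | h
  · have H : ∀ p q : ℕ, p.Prime → q.Prime → p + 4 ≤ q → q ≤ 2 * n → n < p →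
        ∃ p q : ℕ, p.Prime ∧ q.Prime ∧ n < p ∧ p + 4 ≤ q ∧ q ≤ 2 * n :=
      fun p q hp hq h1 h2 h3 => ⟨p, q, hp, hq, h3, h1, h2⟩
    by_cases h1 : n ≤ 12
    · exact H 13 17 (by norm_num) (by norm_num) (by norm_num) (by omega) (by omega)
    by_cases h2 : n ≤ 16
    · exact H 17 23 (by norm_num) (by norm_num) (by norm_num) (by omega) (by omega)
    by_cases h3 : n ≤ 22
    · exact H 23 31 (by norm_num) (by norm_num) (by norm_num) (by omega) (by omega)
    by_cases h4 : n ≤ 36
    · exact H 37 43 (by norm_num) (by norm_num) (by norm_num) (by omega) (by omega)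
    by_cases h5 : n ≤ 66
    · exact H 67 73 (by norm_num) (by norm_num) (by norm_num) (by omega) (by omega)
    by_cases h6 : n ≤ 126
    · exact H 127 131 (by norm_num) (by norm_num) (by norm_num) (by omega) (by omega)
    by_cases h7 : n ≤ 240
    · exact H 241 251 (by norm_num) (by norm_num) (by norm_num) (by omega) (by omega)
    by_cases h8 : n ≤ 466
    · exact H 467 479 (by norm_num) (by norm_num) (by norm_num) (by omega) (by omega)
    by_cases h9 : n ≤ 918
    · exact H 919 929 (by norm_num) (by norm_num) (by norm_num) (by omega) (by omega)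
    · exact H 1823 1831 (by norm_num) (by norm_num) (by norm_num) (by omega) (by omega)
  · by_contra hcon
    push Not at hcon
    have hex : ∃ p : ℕ, p.Prime ∧ n < p ∧ p ≤ 2 * n := Nat.exists_prime_lt_and_le_two_mul n (by omega)
    have hmin := Nat.find_spec hex
    set p0 := Nat.find hex with hp0
    have hB : ∀ p : ℕ, p.Prime → n < p → p ≤ 2 * n → p ∈ ({p0, p0 + 2} : Finset ℕ) := by
      intro p hp h1 h2
      have h3 : p0 ≤ p := Nat.find_min' hex ⟨hp, h1, h2⟩
      have h4 : ¬ p0 + 4 ≤ p := by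
        intro h5
        have := hcon p0 p hmin.1 hp hmin.2.1 h5
        omega
      have o1 := hmin.1.eq_two_or_odd
      have o2 := hp.eq_two_or_odd
      rw [Finset.mem_insert, Finset.mem_singleton]
      omega
    have h1 := centralBinom_le n (by omega) _ hB
    have hc2 : ({p0, p0 + 2} : Finset ℕ).card = 2 := Finset.card_pair (by omega)
    rw [hc2] at h1
    have h2 := Nat.four_pow_lt_mul_centralBinom n (by omega)
    have h3 := main_ineq n h
    have h4 := Nat.mul_le_mul_left n h1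
    omega

end CfsgLib.H7Bert
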