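import Cfsg.Agent.LibLE11Syl
import Cfsg.Agent.LibPGraphH12
import Cfsg.Agent.S0721
import Cfsg.Agent.S2466
import Cfsg.Agent.LibH7Bert

/-! groups with the order and spectrum of an alternating group (helper12) -/

set_option autoImplicit false
set_option linter.all false

namespace CfsgLib.AltOrdH12

open Subgroup CfsgLib.LE11Syl CfsgLib.PGraphH12
open scoped Pointwise

variable {G : Type*} [Group G] [Finite G]

/-- `x` of order `q` normalising a `p`-subgroup, no elements of order `pq`. -/
theorem card_mod {p q : ℕ} (hp : p.Prime) (hq : q.Prime) (hpq : p ≠ q) (hno : ¬ ∃ g : G, orderOf g = p * q)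
    {P : Subgroup G} (hP : IsPGroup p P) {x : G} (hx : orderOf x = q) (hxP : x ∈ normalizer (P : Set G)) :
    Nat.card P ≡ 1 [MOD q] := by
  haveI : Fact p.Prime := ⟨hp⟩
  haveI : Fact q.Prime := ⟨hq⟩
  let X : Subgroup (normalizer (P : Set G)) := zpowers ⟨x, hxP⟩
  have hX : IsPGroup q X := by
    apply IsPGroup.of_card (n := 1)
    rw [Nat.card_zpowers, pow_one, ← hx]
    exact (Subgroup.orderOf_mk x hxP)
  let φ : X →* MulAut P := (MulAut.conjNormal (H := P.subgroupOf (normalizer (P : Set G)))).comp X.subtype |> fun f =>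
    ((MulAut.congr (subgroupOfEquivOfLe (le_normalizer (H := P)))).toMonoidHom.comp f)
  letI : MulAction X P := MulAction.compHom P φ
  have hact : ∀ (g : X) (y : P), ((g • y : P) : G) = (g : G) * y * (g : G)⁻¹ := fun g y => rfl
  have hmod := hX.card_modEq_card_fixedPoints P
  have hfix : Nat.card (MulAction.fixedPoints X P) = 1 := by
    rw [Nat.card_eq_one_iff_unique]
    refine ⟨⟨?_⟩, ⟨⟨1, fun g => ?_⟩⟩⟩
    · have key : ∀ y : P, y ∈ MulAction.fixedPoints X P → y = 1 := by
        intro y hy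
        by_contra hy1
        have h1 := hy ⟨⟨x, hxP⟩, mem_zpowers _⟩
        have h2 := congrArg (fun z : P => (z : G)) h1
        simp only [hact] at h2
        apply hno
        have hc : Commute (y : G) x := by
          have h3 : x * (y : G) * x⁻¹ = y := h2
          rw [mul_inv_eq_iff_eq_mul] at h3
          exact h3.symm
        exact exists_pq hc hp hq hpq (dvd_order hP y.2 (fun h => hy1 (Subtype.ext h))) (by rw [hx])
      rintro ⟨a, ha⟩ ⟨b, hb⟩
      exact Subtype.ext ((key a ha).trans (key b hb).symm)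
    · apply Subtype.ext
      rw [hact]; simp
  rw [hfix] at hmod
  exact hmod

/-- a chief factor divisible by all primes of `S` -/
theorem chief (S : Finset ℕ) (hS : S.Nonempty) (hprime : ∀ p ∈ S, p.Prime) (hdvd : ∀ p ∈ S, p ∣ Nat.card G)
    (hno : ∀ p ∈ S, ∀ q ∈ S, p ≠ q → ¬ ∃ g : G, orderOf g = p * q)
    (hmod : ∀ p ∈ S, ∀ q ∈ S, p ≠ q → ∀ j, 1 ≤ j → p ^ j ∣ Nat.card G → ¬ p ^ j ≡ 1 [MOD q]) :
    ∃ (N H : Subgroup G), N.Normal ∧ H.Normal ∧ N < H ∧ (∀ K : Subgroup G, K.Normal → N ≤ K → K ≤ H → K = N ∨ K = H) ∧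
      ∀ p ∈ S, p ∣ N.relIndex H := by
  classical
  obtain ⟨p₀, hp₀⟩ := hS
  obtain ⟨N, hN⟩ := (Set.toFinite {N : Subgroup G | N.Normal ∧ ∀ p ∈ S, ¬ p ∣ Nat.card N}).exists_maximal
    ⟨⊥, inferInstance, fun p hp h => by rw [Subgroup.card_bot] at h; exact (hprime p hp).one_lt.ne' (Nat.dvd_one.mp h)⟩
  have hNn := hN.prop.1
  have hNS := hN.prop.2
  have hNtop : N < ⊤ := lt_top_iff_ne_top.mpr (by
    rintro rfl
    exact hNS p₀ hp₀ (by rw [Subgroup.card_top]; exact hdvd p₀ hp₀))
  obtain ⟨H, hH⟩ := (Set.toFinite {H : Subgroup G | H.Normal ∧ N < H}).exists_minimal ⟨⊤, inferInstance, hNtop⟩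
  have hHn := hH.prop.1
  have hNH := hH.prop.2
  have hchief : ∀ K : Subgroup G, K.Normal → N ≤ K → K ≤ H → K = N ∨ K = H := by
    intro K hK h1 h2
    by_cases h : K = N
    · exact Or.inl h
    · exact Or.inr (le_antisymm h2 (hH.le_of_le ⟨hK, lt_of_le_of_ne h1 (Ne.symm h)⟩ h2))
  refine ⟨N, H, hNn, hHn, hNH, hchief, ?_⟩
  have hcard : Nat.card N * N.relIndex H = Nat.card H := by
    rw [← Subgroup.relIndex_bot_left, Subgroup.relIndex_mul_relIndex ⊥ N H bot_le hNH.le, Subgroup.relIndex_bot_left]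
  obtain ⟨p, hp, hpH⟩ : ∃ p ∈ S, p ∣ Nat.card H := by
    by_contra hc
    push Not at hc
    exact absurd (hN.le_of_ge ⟨hHn, hc⟩ hNH.le) (not_le_of_gt hNH)
  have hred : ∀ q ∈ S, q ∣ Nat.card H → q ∣ N.relIndex H := by
    intro q hq h
    rw [← hcard] at h
    exact ((hprime q hq).dvd_mul.mp h).resolve_left (hNS q hq)
  intro q hq
  apply hred q hq
  by_contra hqH
  have hpq : p ≠ q := fun h => hqH (h ▸ hpH)
  haveI : Fact p.Prime := ⟨hprime p hp⟩
  haveI : Fact q.Prime := ⟨hprime q hq⟩
  obtain ⟨P, hP⟩ := exists_isSyl (p := p) H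
  have hqi : q ∣ H.index := by
    have h1 := H.card_mul_index
    have h2 : q ∣ Nat.card H * H.index := by rw [h1]; exact hdvd q hq
    exact ((hprime q hq).dvd_mul.mp h2).resolve_left hqH
  have hqN : q ∣ Nat.card (normalizer (P : Set G)) := by
    have hsup : H ⊔ normalizer (P : Set G) = ⊤ := by
      rw [eq_top_iff]
      intro g _
      have hg : g ∈ normalizer (H : Set G) := by rw [normalizer_eq_top]; trivial
      obtain ⟨m, hm, hmg⟩ := hP.frattini hg
      have h1 : g = m⁻¹ * (m * g) := by group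
      rw [h1]
      exact (H ⊔ normalizer (P : Set G)).mul_mem (mem_sup_left (H.inv_mem hm)) (mem_sup_right hmg)
    have h1 : H.index = H.relIndex (normalizer (P : Set G)) := by
      rw [← Subgroup.relIndex_top_right, ← hsup, Subgroup.relIndex_sup_left]
    rw [h1] at hqi
    exact hqi.trans (Subgroup.relIndex_dvd_card _ _)
  obtain ⟨x, hx⟩ := exists_prime_orderOf_dvd_card' q hqN
  have hx' : orderOf (x : G) = q := by rw [Subgroup.orderOf_coe]; exact hx
  have h1 := card_mod (hprime p hp) (hprime q hq) hpq (hno p hp q hq hpq) hP.2.1 hx' x.2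
  have hPb := hP.ne_bot hpH
  obtain ⟨j, hj⟩ := IsPGroup.iff_card.mp hP.2.1
  have hj1 : 1 ≤ j := by
    by_contra hc
    have : j = 0 := by omega
    rw [this, pow_zero] at hj
    exact hPb (Subgroup.eq_bot_of_card_eq _ hj)
  rw [hj] at h1
  exact hmod p hp q hq hpq j hj1 (hj ▸ Subgroup.card_subgroup_dvd_card P) h1

theorem relIndex_eq {N H : Subgroup G} [N.Normal] : Nat.card (H.map (QuotientGroup.mk' N)) = N.relIndex H := by
  rw [← Subgroup.relIndex_bot_left, ← Subgroup.relIndex_comap, MonoidHom.comap_bot, QuotientGroup.ker_mk']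

/-- chief factors are powers of simple groups -/
theorem chief_pow {N H : Subgroup G} [hN : N.Normal] (hH : H.Normal) (hNH : N < H)
    (hc : ∀ K : Subgroup G, K.Normal → N ≤ K → K ≤ H → K = N ∨ K = H) :
    ∃ (T : Type) (_ : Group T) (m : ℕ), IsSimpleGroup T ∧ 0 < m ∧ Nonempty ((H.map (QuotientGroup.mk' N)) ≃* (Fin m → T)) := by
  haveI : (H.map (QuotientGroup.mk' N)).Normal := hH.map _ (QuotientGroup.mk'_surjective N)
  refine Cfsg.Agent.S0721.result (H.map (QuotientGroup.mk' N)) ?_ ?_
  · intro h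
    rw [(Subgroup.map_eq_bot_iff _), QuotientGroup.ker_mk'] at h
    exact absurd h (not_le_of_gt hNH)
  · intro M hM hMH
    have h1 : (M.comap (QuotientGroup.mk' N)).map (QuotientGroup.mk' N) = M :=
      Subgroup.map_comap_eq_self_of_surjective (QuotientGroup.mk'_surjective N) M
    have h2 : N ≤ M.comap (QuotientGroup.mk' N) := QuotientGroup.le_comap_mk' N M
    have h3 : M.comap (QuotientGroup.mk' N) ≤ H := by
      have h4 := Subgroup.comap_mono (f := QuotientGroup.mk' N) hMH
      rw [QuotientGroup.comap_map_mk', sup_eq_right.mpr hNH.le] at h4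
      exact h4
    rcases hc _ (hM.comap _) h2 h3 with h | h
    · left; rw [← h1, h, QuotientGroup.map_mk'_self]
    · right; rw [← h1, h]

/-- the quotient as image -/
theorem quot_equiv {N H : Subgroup G} [N.Normal] (hNH : N ≤ H) :
    Nonempty ((↥H ⧸ N.subgroupOf H) ≃* (H.map (QuotientGroup.mk' N))) := by
  let f : H →* (H.map (QuotientGroup.mk' N)) := (QuotientGroup.mk' N).subgroupMap H
  have hf : Function.Surjective f := MonoidHom.subgroupMap_surjective _ _
  have hk : f.ker = N.subgroupOf H := by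
    ext x
    rw [MonoidHom.mem_ker, Subgroup.mem_subgroupOf, ← QuotientGroup.eq_one_iff (N := N)]
    constructor
    · intro h; exact congrArg Subtype.val h
    · intro h; exact Subtype.ext h
  exact ⟨(QuotientGroup.quotientMulEquivOfEq hk.symm).trans (QuotientGroup.quotientKerEquivOfSurjective f hf)⟩

/-- `p² ∤ n!` -/
theorem sq_not_dvd {n p : ℕ} (hp : p.Prime) (h : n < 2 * p) : ¬ p ^ 2 ∣ n.factorial := by
  intro hd
  have hn0 : n ≠ 0 := by
    rintro rfl
    rw [Nat.factorial_zero] at hd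
    have := Nat.le_of_dvd one_pos hd
    have := hp.two_le
    nlinarith
  have h1 : Nat.log p n < 2 := by
    rw [Nat.log_lt_iff_lt_pow hp.one_lt hn0]
    have := hp.two_le
    nlinarith
  rw [hp.pow_dvd_factorial_iff h1] at hd
  simp only [Finset.sum_Ico_succ_top (show 1 ≤ 1 by norm_num), Finset.Ico_self, Finset.sum_empty, pow_one, zero_add] at hd
  have h2 : n / p < 2 := (Nat.div_lt_iff_lt_mul hp.pos).mpr h
  omega

/-- primes in `(n/2, n]` are incongruent to 1 -/
theorem mod_ne {n p q : ℕ} (hp : p.Prime) (hq : q.Prime) (hp2 : p ≠ 2) (hpq : p ≠ q) (hpn : p ≤ n) (hqn : n < 2 * q) (hq2 : q ≠ 2) : ¬ p ≡ 1 [MOD q] := by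
  intro h
  have h1 : q ∣ p - 1 := (Nat.modEq_iff_dvd' hp.one_lt.le).mp h.symm
  obtain ⟨k, hk⟩ := h1
  have hp1 := hp.two_le
  have hq1 := hq.two_le
  have hop := hp.eq_two_or_odd'.resolve_left hp2
  have hoq := hq.eq_two_or_odd'.resolve_left hq2
  rcases Nat.lt_or_ge k 2 with h | h
  · interval_cases k
    · omega
    · obtain ⟨a, ha⟩ := hop
      obtain ⟨b, hb⟩ := hoq
      omega
  · have : q * 2 ≤ q * k := Nat.mul_le_mul_left _ h
    omega

theorem two_primes {n : ℕ} (hn : 5 ≤ n) (h6 : n ≠ 6) (h10 : n ≠ 10) :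
    ∃ p q : ℕ, p.Prime ∧ q.Prime ∧ p ≠ q ∧ n < 2 * p ∧ n < 2 * q ∧ p ≤ n ∧ q ≤ n := by
  rcases Nat.lt_or_ge n 18 with h | h
  · have H : ∀ p q : ℕ, p.Prime → q.Prime → p ≠ q → n < 2 * p → n < 2 * q → p ≤ n → q ≤ n →
        ∃ p q : ℕ, p.Prime ∧ q.Prime ∧ p ≠ q ∧ n < 2 * p ∧ n < 2 * q ∧ p ≤ n ∧ q ≤ n :=
      fun p q a b c d e f g => ⟨p, q, a, b, c, d, e, f, g⟩
    interval_cases n
    · exact H 3 5 (by norm_num) (by norm_num) (by norm_num) (by norm_num) (by norm_num) (by norm_num) (by norm_num)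
    · exact absurd rfl h6
    · exact H 5 7 (by norm_num) (by norm_num) (by norm_num) (by norm_num) (by norm_num) (by norm_num) (by norm_num)
    · exact H 5 7 (by norm_num) (by norm_num) (by norm_num) (by norm_num) (by norm_num) (by norm_num) (by norm_num)
    · exact H 5 7 (by norm_num) (by norm_num) (by norm_num) (by norm_num) (by norm_num) (by norm_num) (by norm_num)
    · exact absurd rfl h10
    · exact H 7 11 (by norm_num) (by norm_num) (by norm_num) (by norm_num) (by norm_num) (by norm_num) (by norm_num)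
    · exact H 7 11 (by norm_num) (by norm_num) (by norm_num) (by norm_num) (by norm_num) (by norm_num) (by norm_num)
    · exact H 7 11 (by norm_num) (by norm_num) (by norm_num) (by norm_num) (by norm_num) (by norm_num) (by norm_num)
    · exact H 11 13 (by norm_num) (by norm_num) (by norm_num) (by norm_num) (by norm_num) (by norm_num) (by norm_num)
    · exact H 11 13 (by norm_num) (by norm_num) (by norm_num) (by norm_num) (by norm_num) (by norm_num) (by norm_num)
    · exact H 11 13 (by norm_num) (by norm_num) (by norm_num) (by norm_num) (by norm_num) (by norm_num) (by norm_num)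
    · exact H 11 13 (by norm_num) (by norm_num) (by norm_num) (by norm_num) (by norm_num) (by norm_num) (by norm_num)
  · obtain ⟨p, q, hp, hq, h1, h2, h3⟩ := CfsgLib.H7Bert.two_primes (n / 2) (by omega)
    exact ⟨p, q, hp, hq, by omega, by omega, by omega, by omega, by omega⟩

/-- arithmetic of the order of the alternating group -/
theorem alt_dvd {n : ℕ} (hn : 5 ≤ n) : Nat.card (alternatingGroup (Fin n)) ∣ n.factorial ∧
    ∀ p : ℕ, p.Prime → p ≠ 2 → p ≤ n → p ∣ Nat.card (alternatingGroup (Fin n)) := by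
  haveI : Nontrivial (Fin n) := Fin.nontrivial_iff_two_le.mpr (by omega)
  have h1 : 2 * Nat.card (alternatingGroup (Fin n)) = n.factorial := by
    rw [two_mul_nat_card_alternatingGroup, Nat.card_perm, Nat.card_eq_fintype_card, Fintype.card_fin]
  refine ⟨⟨2, by rw [← h1]; ring⟩, fun p hp hp2 hpn => ?_⟩
  have h2 : p ∣ 2 * Nat.card (alternatingGroup (Fin n)) := by rw [h1]; exact (Nat.Prime.dvd_factorial hp).mpr hpn
  refine (hp.dvd_mul.mp h2).resolve_left fun h => ?_
  exact hp2 ((Nat.prime_dvd_prime_iff_eq hp Nat.prime_two).mp h)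

theorem no_elem {n : ℕ} (hspec : Set.range (orderOf : G → ℕ) = Set.range (orderOf : ↥(alternatingGroup (Fin n)) → ℕ))
    {p q : ℕ} (hp : p.Prime) (hq : q.Prime) (hp2 : p ≠ 2) (hq2 : q ≠ 2) (hpq : p ≠ q) (hpn : p ≤ n) (hqn : q ≤ n)
    (h : n < p + q) : ¬ ∃ g : G, orderOf g = p * q := by
  rintro ⟨g, hg⟩
  have h1 : p * q ∈ Set.range (orderOf : G → ℕ) := ⟨g, hg⟩
  rw [hspec, Cfsg.Agent.S2466.result n p q hp hq hp2 hq2 hpq hpn hqn] at h1
  omega

/-- the chief factor for primes in `(n/2, n]` -/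
theorem chief_big {n : ℕ} (hn : 5 ≤ n) (h6 : n ≠ 6) (h10 : n ≠ 10)
    (hcard : Nat.card G = Nat.card ↥(alternatingGroup (Fin n)))
    (hspec : Set.range (orderOf : G → ℕ) = Set.range (orderOf : ↥(alternatingGroup (Fin n)) → ℕ)) :
    ∃ (N H : Subgroup G), N.Normal ∧ H.Normal ∧ N < H ∧ (∀ K : Subgroup G, K.Normal → N ≤ K → K ≤ H → K = N ∨ K = H) ∧
      ∀ p : ℕ, p.Prime → n < 2 * p → p ≤ n → p ∣ N.relIndex H := by
  classical
  obtain ⟨p₀, q₀, hp₀, hq₀, -, h1, -, h2, -⟩ := two_primes hn h6 h10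
  let S : Finset ℕ := (Finset.range (n + 1)).filter (fun p => p.Prime ∧ n < 2 * p)
  have hS : ∀ p, p ∈ S ↔ p ≤ n ∧ p.Prime ∧ n < 2 * p := fun p => by
    simp only [S, Finset.mem_filter, Finset.mem_range, Nat.lt_succ_iff]
  have hne2 : ∀ p, n < 2 * p → p ≠ 2 := by intro p hp h; omega
  obtain ⟨N, H, a, b, c, d, e⟩ := chief (G := G) S ⟨p₀, (hS _).mpr ⟨h2, hp₀, h1⟩⟩ (fun p hp => ((hS p).mp hp).2.1)
    (fun p hp => by
      have := (hS p).mp hp
      rw [hcard]; exact (alt_dvd hn).2 p this.2.1 (hne2 p this.2.2) this.1)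
    (fun p hp q hq hpq => by
      have hp' := (hS p).mp hp
      have hq' := (hS q).mp hq
      exact no_elem hspec hp'.2.1 hq'.2.1 (hne2 p hp'.2.2) (hne2 q hq'.2.2) hpq hp'.1 hq'.1 (by omega))
    (fun p hp q hq hpq j hj hjd => by
      have hp' := (hS p).mp hp
      have hq' := (hS q).mp hq
      have hj1 : j = 1 := by
        by_contra hc
        apply sq_not_dvd hp'.2.1 hp'.2.2
        have h3 : p ^ 2 ∣ p ^ j := pow_dvd_pow p (by omega)
        exact h3.trans (hjd.trans ((dvd_of_eq hcard).trans (alt_dvd hn).1))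
      rw [hj1, pow_one]
      exact mod_ne hp'.2.1 hq'.2.1 (hne2 p hp'.2.2) hpq hp'.1 hq'.2.2 (hne2 q hq'.2.2))
  exact ⟨N, H, a, b, c, d, fun p h3 h4 h5 => e p ((hS p).mpr ⟨h5, h3, h4⟩)⟩

/-- a chief factor of a solvable group is not divisible by two primes -/
theorem not_solvable_of_chief {N H : Subgroup G} (hN : N.Normal) (hH : H.Normal) (hNH : N < H)
    (hc : ∀ K : Subgroup G, K.Normal → N ≤ K → K ≤ H → K = N ∨ K = H) {p q : ℕ} (hp : p.Prime) (hq : q.Prime) (hpq : p ≠ q)
    (h1 : p ∣ N.relIndex H) (h2 : q ∣ N.relIndex H) : ¬ Group.IsSolvable G := by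
  intro hs
  haveI := hN
  haveI := hs
  obtain ⟨T, _, m, hT, hm, ⟨e⟩⟩ := chief_pow hH hNH hc
  haveI : Finite (Fin m → T) := Finite.of_equiv _ e.toEquiv
  haveI : Finite T := Finite.of_injective (fun t : T => (fun _ : Fin m => t)) (fun a b h => congrFun h ⟨0, hm⟩)
  have hcT : Nat.card T ^ m = N.relIndex H := by
    rw [← relIndex_eq, Nat.card_congr e.toEquiv, Nat.card_pi, Finset.prod_const, Finset.card_univ, Fintype.card_fin]
  haveI : Group.IsSolvable T := by
    haveI : Group.IsSolvable (Fin m → T) := Group.isSolvable_of_surjective (f := e.toMonoidHom) e.surjective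
    exact Group.isSolvable_of_surjective (f := Pi.evalMonoidHom (fun _ : Fin m => T) ⟨0, hm⟩) (Function.surjective_eval _)
  haveI := hT
  have hTc : ∀ a b : T, a * b = b * a := IsSimpleGroup.comm_iff_isSolvable.2 inferInstance
  letI : CommGroup T := { ‹Group T› with mul_comm := hTc }
  have hpr := IsSimpleGroup.prime_card (α := T)
  rw [← hcT] at h1 h2
  have e1 := (Nat.prime_dvd_prime_iff_eq hp hpr).mp (hp.dvd_of_dvd_pow h1)
  have e2 := (Nat.prime_dvd_prime_iff_eq hq hpr).mp (hq.dvd_of_dvd_pow h2)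
  exact hpq (e1.trans e2.symm)

theorem s3419 {n : ℕ} (hn : 5 ≤ n)
    (hcard : Nat.card G = Nat.card ↥(alternatingGroup (Fin n)))
    (hspec : Set.range (orderOf : G → ℕ) = Set.range (orderOf : ↥(alternatingGroup (Fin n)) → ℕ)) :
    ¬ Group.IsSolvable G := by
  classical
  by_cases h6 : n = 6
  · subst h6
    have hc : Nat.card G ∣ 360 := by
      rw [hcard]
      haveI : Nontrivial (Fin 6) := inferInstance
      rw [nat_card_alternatingGroup, Nat.card_eq_fintype_card, Fintype.card_fin]
      decide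
    obtain ⟨N, H, hN, hH, hNH, hch, hd⟩ := chief (G := G) {3, 5} ⟨3, by simp⟩
      (by intro p hp; fin_cases hp <;> norm_num)
      (by
        intro p hp
        rw [hcard]
        fin_cases hp
        · exact (alt_dvd (n := 6) (by norm_num)).2 3 (by norm_num) (by norm_num) (by norm_num)
        · exact (alt_dvd (n := 6) (by norm_num)).2 5 (by norm_num) (by norm_num) (by norm_num))
      (by
        intro p hp q hq hpq
        refine no_elem hspec ?_ ?_ ?_ ?_ hpq ?_ ?_ ?_ <;>
        · fin_cases hp <;> fin_cases hq <;> first | exact absurd rfl hpq | norm_num)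
      (by
        intro p hp q hq hpq j hj hjd
        have h1 := hjd.trans hc
        fin_cases hp <;> fin_cases hq
        · exact absurd rfl hpq
        · have hj3 : j < 3 := by
            by_contra hcon
            exact absurd ((pow_dvd_pow 3 (show 3 ≤ j by omega)).trans h1) (by norm_num)
          interval_cases j <;> decide
        · have hj3 : j < 2 := by
            by_contra hcon
            exact absurd ((pow_dvd_pow 5 (show 2 ≤ j by omega)).trans h1) (by norm_num)
          interval_cases j; decide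
        · exact absurd rfl hpq)
    exact not_solvable_of_chief hN hH hNH hch (p := 3) (q := 5) (by norm_num) (by norm_num) (by norm_num)
      (hd 3 (by simp)) (hd 5 (by simp))
  by_cases h10 : n = 10
  · subst h10
    have hc : Nat.card G ∣ 1814400 := by
      rw [hcard]
      haveI : Nontrivial (Fin 10) := inferInstance
      rw [nat_card_alternatingGroup, Nat.card_eq_fintype_card, Fintype.card_fin]
      decide
    obtain ⟨N, H, hN, hH, hNH, hch, hd⟩ := chief (G := G) {5, 7} ⟨5, by simp⟩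
      (by intro p hp; fin_cases hp <;> norm_num)
      (by
        intro p hp
        rw [hcard]
        fin_cases hp
        · exact (alt_dvd (n := 10) (by norm_num)).2 5 (by norm_num) (by norm_num) (by norm_num)
        · exact (alt_dvd (n := 10) (by norm_num)).2 7 (by norm_num) (by norm_num) (by norm_num))
      (by
        intro p hp q hq hpq
        refine no_elem hspec ?_ ?_ ?_ ?_ hpq ?_ ?_ ?_ <;>
        · fin_cases hp <;> fin_cases hq <;> first | exact absurd rfl hpq | norm_num)
      (by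
        intro p hp q hq hpq j hj hjd
        have h1 := hjd.trans hc
        fin_cases hp <;> fin_cases hq
        · exact absurd rfl hpq
        · have hj3 : j < 3 := by
            by_contra hcon
            exact absurd ((pow_dvd_pow 5 (show 3 ≤ j by omega)).trans h1) (by norm_num)
          interval_cases j <;> decide
        · have hj3 : j < 2 := by
            by_contra hcon
            exact absurd ((pow_dvd_pow 7 (show 2 ≤ j by omega)).trans h1) (by norm_num)
          interval_cases j; decide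
        · exact absurd rfl hpq)
    exact not_solvable_of_chief hN hH hNH hch (p := 5) (q := 7) (by norm_num) (by norm_num) (by norm_num)
      (hd 5 (by simp)) (hd 7 (by simp))
  obtain ⟨N, H, hN, hH, hNH, hch, hd⟩ := chief_big hn h6 h10 hcard hspec
  obtain ⟨p, q, hp, hq, hpq, h1, h2, h3, h4⟩ := two_primes hn h6 h10
  exact not_solvable_of_chief hN hH hNH hch hp hq hpq (hd p hp h1 h3) (hd q hq h2 h4)

theorem s3420 {n : ℕ} (hn : 11 ≤ n)
    (hcard : Nat.card G = Nat.card ↥(alternatingGroup (Fin n)))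
    (hspec : Set.range (orderOf : G → ℕ) = Set.range (orderOf : ↥(alternatingGroup (Fin n)) → ℕ)) :
    ∃ (N H : Subgroup G) (_ : N.Normal), H.Normal ∧ N < H ∧
      IsSimpleGroup (↥H ⧸ N.subgroupOf H) ∧ ¬ IsMulCommutative (↥H ⧸ N.subgroupOf H) ∧
      ∀ p : ℕ, p.Prime → n < 2 * p → p ≤ n → p ∣ Nat.card (↥H ⧸ N.subgroupOf H) := by
  classical
  obtain ⟨N, H, hN, hH, hNH, hch, hd⟩ := chief_big (by omega) (by omega) (by omega) hcard hspec
  haveI := hN
  obtain ⟨p, q, hp, hq, hpq, h1, h2, h3, h4⟩ := two_primes (n := n) (by omega) (by omega) (by omega)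
  obtain ⟨T, _, m, hT, hm, ⟨e⟩⟩ := chief_pow hH hNH hch
  haveI : Finite (Fin m → T) := Finite.of_equiv _ e.toEquiv
  haveI : Finite T := Finite.of_injective (fun t : T => (fun _ : Fin m => t)) (fun a b h => congrFun h ⟨0, hm⟩)
  have hcT : Nat.card T ^ m = N.relIndex H := by
    rw [← relIndex_eq, Nat.card_congr e.toEquiv, Nat.card_pi, Finset.prod_const, Finset.card_univ, Fintype.card_fin]
  have hm1 : m = 1 := by
    by_contra hc
    have h5 : p ∣ Nat.card T := hp.dvd_of_dvd_pow (by rw [hcT]; exact hd p hp h1 h3)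
    have h6 : p ^ 2 ∣ Nat.card T ^ m := (pow_dvd_pow p (show 2 ≤ m by omega)).trans (pow_dvd_pow_of_dvd h5 m)
    rw [hcT] at h6
    apply sq_not_dvd hp h1
    exact h6.trans ((Subgroup.relIndex_dvd_card _ _).trans ((Subgroup.card_subgroup_dvd_card H).trans
      ((dvd_of_eq hcard).trans (alt_dvd (by omega)).1)))
  subst hm1
  obtain ⟨f⟩ := quot_equiv (N := N) (H := H) hNH.le
  have e' : (↥H ⧸ N.subgroupOf H) ≃* T := (f.trans e).trans (MulEquiv.piUnique (fun _ : Fin 1 => T))
  have hcq : Nat.card (↥H ⧸ N.subgroupOf H) = N.relIndex H := rfl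
  haveI := hT
  refine ⟨N, H, hN, hH, hNH, ?_, ?_, fun r hr h5 h6 => by rw [hcq]; exact hd r hr h5 h6⟩
  · exact e'.isSimpleGroup
  · intro hab
    have hTc : ∀ a b : T, a * b = b * a := by
      intro a b
      obtain ⟨a, rfl⟩ := e'.surjective a
      obtain ⟨b, rfl⟩ := e'.surjective b
      rw [← map_mul, ← map_mul, hab.is_comm.comm a b]
    letI : CommGroup T := { ‹Group T› with mul_comm := hTc }
    have hpr := IsSimpleGroup.prime_card (α := T)
    have e1 := (Nat.prime_dvd_prime_iff_eq hp hpr).mp (hp.dvd_of_dvd_pow (n := 1) (by rw [hcT]; exact hd p hp h1 h3))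
    have e2 := (Nat.prime_dvd_prime_iff_eq hq hpr).mp (hq.dvd_of_dvd_pow (n := 1) (by rw [hcT]; exact hd q hq h2 h4))
    exact hpq (e1.trans e2.symm)

end CfsgLib.AltOrdH12
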