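import Cfsg.Agent.LibCharBasic3
import Mathlib
/-!
# Moments of the fixed-point character of a multiply transitive group (helper19)
-/
set_option autoImplicit false
set_option linter.all false
open Cfsg MulAction
namespace CfsgLib.AltZ19

section Mom
variable {Γ : Type*} [Group Γ] [Fintype Γ] {X : Type*} [Fintype X] [MulAction Γ X]

theorem moment {k : ℕ} [IsMultiplyPretransitive Γ X k] (hk : k ≤ Fintype.card X) (τ : Equiv.Perm (Fin k)) :
    ∑ g : Γ, Nat.card {e : Fin k ↪ X // ∀ i, g • e i = e (τ i)} = Nat.card Γ := by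
  classical
  haveI hne : Nonempty (Fin k ↪ X) := by
    rw [Function.Embedding.nonempty_iff_card_le]
    simpa using hk
  have h1 : ∑ g : Γ, Nat.card {e : Fin k ↪ X // ∀ i, g • e i = e (τ i)} =
      ∑ e : Fin k ↪ X, Nat.card {g : Γ // ∀ i, g • e i = e (τ i)} := by
    simp only [Nat.card_eq_fintype_card, Fintype.card_subtype]
    exact Finset.sum_card_bipartiteAbove_eq_sum_card_bipartiteBelow (fun (g : Γ) (e : Fin k ↪ X) => ∀ i, g • e i = e (τ i))
  rw [h1]
  have h2 : ∀ e : Fin k ↪ X, Nat.card {g : Γ // ∀ i, g • e i = e (τ i)} * Fintype.card (Fin k ↪ X) = Nat.card Γ := by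
    intro e
    obtain ⟨g0, hg0⟩ := MulAction.exists_smul_eq Γ e (τ.toEmbedding.trans e)
    have hg0' : ∀ i, g0 • e i = e (τ i) := fun i => by
      have := DFunLike.congr_fun hg0 i
      simpa using this
    have e1 : {g : Γ // ∀ i, g • e i = e (τ i)} ≃ stabilizer Γ e :=
      { toFun := fun g => ⟨g0⁻¹ * g.1, by
          rw [mem_stabilizer_iff]
          ext i
          change (g0⁻¹ * g.1) • e i = e i
          rw [mul_smul, g.2 i, inv_smul_eq_iff, hg0' i]⟩
        invFun := fun h => ⟨g0 * h.1, by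
          intro i
          have h3 : h.1 • e = e := h.2
          have h4 : h.1 • e i = e i := DFunLike.congr_fun h3 i
          rw [mul_smul, h4, hg0' i]⟩
        left_inv := fun g => by ext; simp
        right_inv := fun g => by ext; simp }
    rw [Nat.card_congr e1]
    have h5 := card_orbit_mul_card_stabilizer_eq_card_group Γ e
    have h6 : orbit Γ e = Set.univ := orbit_eq_univ Γ e
    have h7 : Fintype.card (orbit Γ e) = Fintype.card (Fin k ↪ X) := by
      rw [← Nat.card_eq_fintype_card, ← Nat.card_eq_fintype_card]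
      exact (Nat.card_congr (Equiv.setCongr h6)).trans Nat.card_univ
    rw [Nat.card_eq_fintype_card, Nat.card_eq_fintype_card, ← h5, h7, mul_comm]
  have hN : 0 < Fintype.card (Fin k ↪ X) := Fintype.card_pos
  apply Nat.eq_of_mul_eq_mul_right hN
  rw [Finset.sum_mul, Finset.sum_congr rfl fun e _ => h2 e, Finset.sum_const, Finset.card_univ, smul_eq_mul, mul_comm]

/-- the points in two-cycles -/
def D (g : Γ) : Set X := {x | g • x ≠ x ∧ g • g • x = x}

theorem card_one (k : ℕ) (g : Γ) :
    Nat.card {e : Fin k ↪ X // ∀ i, g • e i = e ((1 : Equiv.Perm (Fin k)) i)} = (Nat.card (fixedBy X g)).descFactorial k := by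
  classical
  have e1 : {e : Fin k ↪ X // ∀ i, g • e i = e ((1 : Equiv.Perm (Fin k)) i)} ≃ (Fin k ↪ fixedBy X g) :=
    { toFun := fun e => ⟨fun i => ⟨e.1 i, e.2 i⟩, fun i j h => e.1.injective (congrArg Subtype.val h)⟩
      invFun := fun e => ⟨⟨fun i => (e i : X), fun i j h => e.injective (Subtype.ext h)⟩, fun i => (e i).2⟩
      left_inv := fun e => by ext; rfl
      right_inv := fun e => by ext; rfl }
  rw [Nat.card_congr e1, Nat.card_eq_fintype_card, Fintype.card_embedding_eq, Fintype.card_fin, Nat.card_eq_fintype_card]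

theorem D_smul {g : Γ} {x : X} (h : x ∈ D g) : g • x ∈ (D g : Set X) := by
  refine ⟨fun h1 => h.1 ?_, ?_⟩
  · exact (MulAction.injective g) h1
  · rw [h.2]

theorem D_ne_F {g : Γ} {x z : X} (h : x ∈ D g) (hz : g • z = z) : x ≠ z := by
  rintro rfl
  exact h.1 hz

theorem card_two (g : Γ) :
    Nat.card {e : Fin 2 ↪ X // ∀ i, g • e i = e ((Equiv.swap 0 1 : Equiv.Perm (Fin 2)) i)} = Nat.card (D g : Set X) := by
  classical
  refine Nat.card_congr (Equiv.ofBijective (fun e => ⟨e.1 0, ?_, ?_⟩) ⟨?_, ?_⟩)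
  · have h0 := e.2 0
    rw [Equiv.swap_apply_left] at h0
    rw [h0]
    exact fun h => absurd (e.1.injective h) (by decide)
  · have h0 := e.2 0
    have h1 := e.2 1
    rw [Equiv.swap_apply_left] at h0
    rw [Equiv.swap_apply_right] at h1
    rw [h0, h1]
  · intro e e' h
    have h00 : e.1 0 = e'.1 0 := congrArg Subtype.val h
    have h0 := e.2 0
    have h0' := e'.2 0
    rw [Equiv.swap_apply_left] at h0 h0'
    apply Subtype.ext
    ext i
    fin_cases i
    · exact h00
    · change e.1 1 = e'.1 1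
      rw [← h0, ← h0', h00]
  · rintro ⟨x, hx⟩
    refine ⟨⟨⟨![x, g • x], ?_⟩, ?_⟩, rfl⟩
    · intro i j h
      have a1 : x ≠ g • x := fun h => hx.1 h.symm
      fin_cases i <;> fin_cases j <;> first | rfl | exact absurd h a1 | exact absurd h.symm a1
    · intro i
      fin_cases i
      · rfl
      · exact hx.2

theorem card_three (g : Γ) :
    Nat.card {e : Fin 3 ↪ X // ∀ i, g • e i = e ((Equiv.swap 0 1 : Equiv.Perm (Fin 3)) i)} =
      Nat.card (D g : Set X) * Nat.card (fixedBy X g) := by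
  classical
  rw [← Nat.card_prod]
  have hs2 : (Equiv.swap 0 1 : Equiv.Perm (Fin 3)) 2 = 2 := by decide
  refine Nat.card_congr (Equiv.ofBijective (fun e => (⟨e.1 0, ?_, ?_⟩, ⟨e.1 2, ?_⟩)) ⟨?_, ?_⟩)
  · have h0 := e.2 0
    rw [Equiv.swap_apply_left] at h0
    rw [h0]
    exact fun h => absurd (e.1.injective h) (by decide)
  · have h0 := e.2 0
    have h1 := e.2 1
    rw [Equiv.swap_apply_left] at h0
    rw [Equiv.swap_apply_right] at h1
    rw [h0, h1]
  · have h2 := e.2 2
    rw [hs2] at h2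
    exact h2
  · intro e e' h
    have h00 : e.1 0 = e'.1 0 := congrArg (fun t => (t.1 : X)) h
    have h22 : e.1 2 = e'.1 2 := congrArg (fun t => (t.2 : X)) h
    have h0 := e.2 0
    have h0' := e'.2 0
    rw [Equiv.swap_apply_left] at h0 h0'
    apply Subtype.ext
    ext i
    fin_cases i
    · exact h00
    · change e.1 1 = e'.1 1
      rw [← h0, ← h0', h00]
    · exact h22
  · rintro ⟨⟨x, hx⟩, ⟨z, hz⟩⟩
    have a1 : x ≠ g • x := fun h => hx.1 h.symm
    have a2 : x ≠ z := D_ne_F hx hz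
    have a3 : g • x ≠ z := D_ne_F (D_smul hx) hz
    refine ⟨⟨⟨![x, g • x, z], ?_⟩, ?_⟩, rfl⟩
    · intro i j h
      fin_cases i <;> fin_cases j <;> first | rfl | exact absurd h a1 | exact absurd h a2 | exact absurd h a3 | exact absurd h.symm a1 | exact absurd h.symm a2 | exact absurd h.symm a3
    · intro i
      fin_cases i
      · rfl
      · exact hx.2
      · exact hz

theorem card_four (g : Γ) :
    Nat.card {e : Fin 4 ↪ X // ∀ i, g • e i = e ((Equiv.swap 0 1 : Equiv.Perm (Fin 4)) i)} =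
      Nat.card (D g : Set X) * (Nat.card (fixedBy X g)).descFactorial 2 := by
  classical
  have hcc : (Nat.card (fixedBy X g)).descFactorial 2 = Nat.card (Fin 2 ↪ fixedBy X g) := by
    rw [Nat.card_eq_fintype_card, Nat.card_eq_fintype_card, Fintype.card_embedding_eq, Fintype.card_fin]
  rw [hcc, ← Nat.card_prod]
  have hs2 : (Equiv.swap 0 1 : Equiv.Perm (Fin 4)) 2 = 2 := by decide
  have hs3 : (Equiv.swap 0 1 : Equiv.Perm (Fin 4)) 3 = 3 := by decide
  have hf2 : ∀ e : {e : Fin 4 ↪ X // ∀ i, g • e i = e ((Equiv.swap 0 1 : Equiv.Perm (Fin 4)) i)}, g • e.1 2 = e.1 2 := by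
    intro e
    have h2 := e.2 2
    rwa [hs2] at h2
  have hf3 : ∀ e : {e : Fin 4 ↪ X // ∀ i, g • e i = e ((Equiv.swap 0 1 : Equiv.Perm (Fin 4)) i)}, g • e.1 3 = e.1 3 := by
    intro e
    have h2 := e.2 3
    rwa [hs3] at h2
  refine Nat.card_congr (Equiv.ofBijective (fun e => (⟨e.1 0, ?_, ?_⟩, ⟨![⟨e.1 2, hf2 e⟩, ⟨e.1 3, hf3 e⟩], ?_⟩)) ⟨?_, ?_⟩)
  · have h0 := e.2 0
    rw [Equiv.swap_apply_left] at h0
    rw [h0]
    exact fun h => absurd (e.1.injective h) (by decide)
  · have h0 := e.2 0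
    have h1 := e.2 1
    rw [Equiv.swap_apply_left] at h0
    rw [Equiv.swap_apply_right] at h1
    rw [h0, h1]
  · have hne : e.1 2 ≠ e.1 3 := fun h => absurd (e.1.injective h) (by decide)
    intro i j h
    fin_cases i <;> fin_cases j <;> first | rfl | exact absurd (congrArg Subtype.val h) hne | exact absurd (congrArg Subtype.val h.symm) hne
  · intro e e' h
    have h00 : e.1 0 = e'.1 0 := congrArg (fun t => (t.1 : X)) h
    have h22 : e.1 2 = e'.1 2 := congrArg (fun t => (t.2 0 : X)) h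
    have h33 : e.1 3 = e'.1 3 := congrArg (fun t => (t.2 1 : X)) h
    have h0 := e.2 0
    have h0' := e'.2 0
    rw [Equiv.swap_apply_left] at h0 h0'
    apply Subtype.ext
    ext i
    fin_cases i
    · exact h00
    · change e.1 1 = e'.1 1
      rw [← h0, ← h0', h00]
    · exact h22
    · exact h33
  · rintro ⟨⟨x, hx⟩, v⟩
    have hz : g • (v 0 : X) = v 0 := (v 0).2
    have hw : g • (v 1 : X) = v 1 := (v 1).2
    have a1 : x ≠ g • x := fun h => hx.1 h.symm
    have a2 : x ≠ v 0 := D_ne_F hx hz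
    have a3 : g • x ≠ v 0 := D_ne_F (D_smul hx) hz
    have a4 : x ≠ v 1 := D_ne_F hx hw
    have a5 : g • x ≠ v 1 := D_ne_F (D_smul hx) hw
    have a6 : (v 0 : X) ≠ v 1 := fun h => absurd (v.injective (Subtype.ext h)) (by decide)
    refine ⟨⟨⟨![x, g • x, v 0, v 1], ?_⟩, ?_⟩, ?_⟩
    · intro i j h
      fin_cases i <;> fin_cases j <;> first | rfl | exact absurd h a1 | exact absurd h a2 | exact absurd h a3 | exact absurd h a4 | exact absurd h a5 | exact absurd h a6 | exact absurd h.symm a1 | exact absurd h.symm a2 | exact absurd h.symm a3 | exact absurd h.symm a4 | exact absurd h.symm a5 | exact absurd h.symm a6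
    · intro i
      fin_cases i
      · rfl
      · exact hx.2
      · exact hz
      · exact hw
    · apply Prod.ext
      · rfl
      · ext i
        fin_cases i <;> rfl

theorem card_sq (g : Γ) :
    Nat.card {e : Fin 4 ↪ X // ∀ i, g • e i = e ((Equiv.swap 0 1 * Equiv.swap 2 3 : Equiv.Perm (Fin 4)) i)} + 2 * Nat.card (D g : Set X) =
      Nat.card (D g : Set X) * Nat.card (D g : Set X) := by
  classical
  have hs0 : (Equiv.swap 0 1 * Equiv.swap 2 3 : Equiv.Perm (Fin 4)) 0 = 1 := by decide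
  have hs1 : (Equiv.swap 0 1 * Equiv.swap 2 3 : Equiv.Perm (Fin 4)) 1 = 0 := by decide
  have hs2 : (Equiv.swap 0 1 * Equiv.swap 2 3 : Equiv.Perm (Fin 4)) 2 = 3 := by decide
  have hs3 : (Equiv.swap 0 1 * Equiv.swap 2 3 : Equiv.Perm (Fin 4)) 3 = 2 := by decide
  have hm : ∀ e : {e : Fin 4 ↪ X // ∀ i, g • e i = e ((Equiv.swap 0 1 * Equiv.swap 2 3 : Equiv.Perm (Fin 4)) i)},
      g • e.1 0 = e.1 1 ∧ g • e.1 1 = e.1 0 ∧ g • e.1 2 = e.1 3 ∧ g • e.1 3 = e.1 2 := by
    intro e
    have h0 := e.2 0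
    have h1 := e.2 1
    have h2 := e.2 2
    have h3 := e.2 3
    rw [hs0] at h0
    rw [hs1] at h1
    rw [hs2] at h2
    rw [hs3] at h3
    exact ⟨h0, h1, h2, h3⟩
  have key : Nat.card {e : Fin 4 ↪ X // ∀ i, g • e i = e ((Equiv.swap 0 1 * Equiv.swap 2 3 : Equiv.Perm (Fin 4)) i)} =
      Nat.card {t : ↥(D (X := X) g) × ↥(D (X := X) g) // (t.2 : X) ≠ t.1 ∧ (t.2 : X) ≠ g • (t.1 : X)} := by
    refine Nat.card_congr (Equiv.ofBijective (fun e => ⟨(⟨e.1 0, ?_, ?_⟩, ⟨e.1 2, ?_, ?_⟩), ?_, ?_⟩) ⟨?_, ?_⟩)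
    · rw [(hm e).1]
      exact fun h => absurd (e.1.injective h) (by decide)
    · rw [(hm e).1, (hm e).2.1]
    · rw [(hm e).2.2.1]
      exact fun h => absurd (e.1.injective h) (by decide)
    · rw [(hm e).2.2.1, (hm e).2.2.2]
    · exact fun h => absurd (e.1.injective h) (by decide)
    · change e.1 2 ≠ g • e.1 0
      rw [(hm e).1]
      exact fun h => absurd (e.1.injective h) (by decide)
    · intro e e' h
      have h00 : e.1 0 = e'.1 0 := congrArg (fun t => (t.1.1 : X)) h
      have h22 : e.1 2 = e'.1 2 := congrArg (fun t => (t.1.2 : X)) h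
      apply Subtype.ext
      ext i
      fin_cases i
      · exact h00
      · change e.1 1 = e'.1 1
        rw [← (hm e).1, ← (hm e').1, h00]
      · exact h22
      · change e.1 3 = e'.1 3
        rw [← (hm e).2.2.1, ← (hm e').2.2.1, h22]
    · rintro ⟨⟨⟨x, hx⟩, ⟨z, hz⟩⟩, h1, h2⟩
      have a1 : x ≠ g • x := fun h => hx.1 h.symm
      have a2 : x ≠ z := fun h => h1 h.symm
      have a3 : g • x ≠ z := fun h => h2 h.symm
      have a4 : x ≠ g • z := by
        intro h
        apply h2
        change z = g • x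
        rw [h, hz.2]
      have a5 : g • x ≠ g • z := fun h => a2 (MulAction.injective g h)
      have a6 : z ≠ g • z := fun h => hz.1 h.symm
      refine ⟨⟨⟨![x, g • x, z, g • z], ?_⟩, ?_⟩, ?_⟩
      · intro i j h
        fin_cases i <;> fin_cases j <;> first | rfl | exact absurd h a1 | exact absurd h a2 | exact absurd h a3 | exact absurd h a4 | exact absurd h a5 | exact absurd h a6 | exact absurd h.symm a1 | exact absurd h.symm a2 | exact absurd h.symm a3 | exact absurd h.symm a4 | exact absurd h.symm a5 | exact absurd h.symm a6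
      · intro i
        fin_cases i
        · rfl
        · exact hx.2
        · rfl
        · exact hz.2
      · rfl
  rw [key, Nat.card_eq_fintype_card, Nat.card_eq_fintype_card, ← Fintype.card_prod, Fintype.card_subtype]
  have hsplit := Finset.card_filter_add_card_filter_not (s := (Finset.univ : Finset (↥(D (X := X) g) × ↥(D (X := X) g))))
    (fun t => (t.2 : X) ≠ t.1 ∧ (t.2 : X) ≠ g • (t.1 : X))
  rw [Finset.card_univ] at hsplit
  rw [← hsplit]
  congr 1
  have hU : (Finset.univ.filter fun t : ↥(D (X := X) g) × ↥(D (X := X) g) => ¬ ((t.2 : X) ≠ t.1 ∧ (t.2 : X) ≠ g • (t.1 : X))) =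
      (Finset.univ.image fun x : (D g : Set X) => (x, x)) ∪ (Finset.univ.image fun x : (D g : Set X) => (x, ⟨g • (x : X), D_smul x.2⟩)) := by
    ext t
    obtain ⟨x, z⟩ := t
    simp only [Finset.mem_filter, Finset.mem_univ, true_and, Finset.mem_union, Finset.mem_image, Prod.mk.injEq]
    constructor
    · intro h
      by_cases h1 : (z : X) = x
      · left
        exact ⟨x, rfl, Subtype.ext h1.symm⟩
      · right
        by_cases h2 : (z : X) = g • (x : X)
        · exact ⟨x, rfl, Subtype.ext h2.symm⟩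
        · exact absurd ⟨h1, h2⟩ h
    · rintro (⟨a, rfl, rfl⟩ | ⟨a, rfl, rfl⟩)
      · exact fun h => h.1 rfl
      · exact fun h => h.2 rfl
  rw [hU, Finset.card_union_of_disjoint, Finset.card_image_of_injective, Finset.card_image_of_injective, Finset.card_univ, two_mul]
  · intro a b h
    exact congrArg Prod.fst h
  · intro a b h
    exact congrArg Prod.fst h
  · rw [Finset.disjoint_left]
    intro t h1 h2
    rw [Finset.mem_image] at h1 h2
    obtain ⟨a, -, rfl⟩ := h1
    obtain ⟨b, -, hb⟩ := h2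
    have hb1 : b = a := congrArg Prod.fst hb
    have hb2 := congrArg (fun t => (t.2 : X)) hb
    subst hb1
    exact b.2.1 hb2

end Mom
end CfsgLib.AltZ19
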