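import Cfsg.Agent.LibAltZ19
/-!
# Irreducible constituents of the fixed-point character of a 4-transitive group (helper19)
-/
set_option autoImplicit false
set_option linter.all false
open scoped ComplexConjugate
open Cfsg MulAction
namespace CfsgLib.AltZ19
open CfsgLib.CharBasic

section Sym
variable {Γ : Type*} [Group Γ] {X : Type*} [Fintype X] [MulAction Γ X]

@[reducible] def symAct : MulAction Γ (Sym2 X) where
  smul g z := z.map (fun x => g • x)
  one_smul z := by
    change z.map (fun x => (1 : Γ) • x) = z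
    simp
  mul_smul g h z := by
    change z.map (fun x => (g * h) • x) = (z.map (fun x => h • x)).map (fun x => g • x)
    rw [Sym2.map_map]
    congr 1
    ext x
    exact mul_smul g h x

attribute [local instance] symAct

theorem smul_mk (g : Γ) (a b : X) : g • (s(a, b) : Sym2 X) = s(g • a, g • b) := rfl

theorem card_sym_fixed (g : Γ) :
    2 * Nat.card (fixedBy (Sym2 X) g) = Nat.card (fixedBy X g) ^ 2 + Nat.card (fixedBy X g) + Nat.card (D (X := X) g) := by
  classical
  set F : Finset X := Finset.univ.filter (fun x => g • x = x) with hF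
  set Dg : Finset X := Finset.univ.filter (fun x => g • x ≠ x ∧ g • g • x = x) with hD
  set Z : Finset (Sym2 X) := Finset.univ.filter (fun z => g • z = z) with hZ
  set T : Finset (X × X) := Finset.univ.filter (fun p => (s(g • p.1, g • p.2) : Sym2 X) = s(p.1, p.2)) with hT
  have cF : Nat.card (fixedBy X g) = F.card := by
    rw [Nat.card_eq_fintype_card, ← Fintype.card_subtype]
    exact Fintype.card_congr (Equiv.refl _)
  have cD : Nat.card (D (X := X) g) = Dg.card := by
    rw [Nat.card_eq_fintype_card, ← Fintype.card_subtype]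
    exact Fintype.card_congr (Equiv.refl _)
  have cZ : Nat.card (fixedBy (Sym2 X) g) = Z.card := by
    rw [Nat.card_eq_fintype_card, ← Fintype.card_subtype]
    exact Fintype.card_congr (Equiv.refl _)
  rw [cF, cD, cZ]
  have cT : T.card = F.card ^ 2 + Dg.card := by
    have h1 : T = (F ×ˢ F) ∪ Dg.image (fun x => (x, g • x)) := by
      ext ⟨a, b⟩
      simp only [hT, hF, hD, Finset.mem_filter, Finset.mem_univ, true_and, Finset.mem_union, Finset.mem_product, Finset.mem_image, Prod.mk.injEq, Sym2.eq_iff]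
      constructor
      · rintro (h | ⟨h1, h2⟩)
        · exact Or.inl h
        · by_cases h3 : g • a = a
          · left
            have h4 : b = a := by rw [← h1, h3]
            subst h4
            exact ⟨h3, h3⟩
          · right
            exact ⟨a, ⟨h3, by rw [h1, h2]⟩, rfl, h1⟩
      · rintro (h | ⟨x, ⟨h1, h2⟩, rfl, rfl⟩)
        · exact Or.inl h
        · exact Or.inr ⟨rfl, h2⟩
    rw [h1, Finset.card_union_of_disjoint, Finset.card_product, Finset.card_image_of_injective, sq]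
    · intro a b h
      exact congrArg Prod.fst h
    · rw [Finset.disjoint_left]
      rintro ⟨a, b⟩ h2 h3
      rw [Finset.mem_product] at h2
      rw [Finset.mem_image] at h3
      obtain ⟨x, hx, hx2⟩ := h3
      have : x = a := congrArg Prod.fst hx2
      subst this
      exact (Finset.mem_filter.1 hx).2.1 (Finset.mem_filter.1 h2.1).2
  have cdiag : (Z.filter (fun z => z.IsDiag)).card = F.card := by
    symm
    apply Finset.card_bij (fun x _ => (s(x, x) : Sym2 X))
    · intro x hx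
      rw [Finset.mem_filter, Finset.mem_filter]
      refine ⟨⟨Finset.mem_univ _, ?_⟩, rfl⟩
      rw [smul_mk, (Finset.mem_filter.1 hx).2]
    · intro a _ b _ h
      exact (Sym2.diag_injective h)
    · intro z hz
      rw [Finset.mem_filter, Finset.mem_filter] at hz
      induction z with | _ a b =>
      have hab : a = b := hz.2
      subst hab
      refine ⟨a, ?_, rfl⟩
      rw [Finset.mem_filter]
      refine ⟨Finset.mem_univ _, ?_⟩
      have h := hz.1.2
      rw [smul_mk] at h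
      exact Sym2.diag_injective h
  have hfib : T.card = ∑ z ∈ Z, (T.filter (fun p => (s(p.1, p.2) : Sym2 X) = z)).card := by
    apply Finset.card_eq_sum_card_fiberwise
    intro p hp
    have hp' := (Finset.mem_filter.1 hp).2
    change s(p.1, p.2) ∈ (Z : Set (Sym2 X))
    rw [Finset.mem_coe, Finset.mem_filter]
    exact ⟨Finset.mem_univ _, hp'⟩
  have hsum : T.card + (Z.filter (fun z => z.IsDiag)).card = 2 * Z.card := by
    rw [hfib, Finset.card_filter, ← Finset.sum_add_distrib, Finset.card_eq_sum_ones, Finset.mul_sum]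
    apply Finset.sum_congr rfl
    intro z hz
    rw [Finset.mem_filter] at hz
    induction z with | _ a b =>
    have hab := hz.2
    rw [smul_mk] at hab
    by_cases h : a = b
    · subst h
      have : T.filter (fun p => (s(p.1, p.2) : Sym2 X) = s(a, a)) = {(a, a)} := by
        ext ⟨x, y⟩
        simp only [Finset.mem_filter, Finset.mem_singleton, Prod.mk.injEq, Sym2.eq_iff, hT, Finset.mem_univ, true_and]
        constructor
        · rintro ⟨-, h | h⟩ <;> exact ⟨h.1, h.2⟩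
        · rintro ⟨rfl, rfl⟩
          rw [Sym2.eq_iff] at hab
          exact ⟨hab, Or.inl ⟨rfl, rfl⟩⟩
      rw [this, Finset.card_singleton, if_pos (show (s(a, a) : Sym2 X).IsDiag from rfl)]
      norm_num
    · have : T.filter (fun p => (s(p.1, p.2) : Sym2 X) = s(a, b)) = {(a, b), (b, a)} := by
        ext ⟨x, y⟩
        simp only [Finset.mem_filter, Finset.mem_insert, Finset.mem_singleton, Prod.mk.injEq, Sym2.eq_iff, hT, Finset.mem_univ, true_and]
        rw [Sym2.eq_iff] at hab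
        constructor
        · rintro ⟨-, h⟩
          exact h
        · rintro (⟨rfl, rfl⟩ | ⟨rfl, rfl⟩)
          · exact ⟨hab, Or.inl ⟨rfl, rfl⟩⟩
          · refine ⟨?_, Or.inr ⟨rfl, rfl⟩⟩
            rcases hab with ⟨h1, h2⟩ | ⟨h1, h2⟩
            · exact Or.inl ⟨h2, h1⟩
            · exact Or.inr ⟨h2, h1⟩
      rw [this, Finset.card_pair (fun hh => h (congrArg Prod.fst hh)), if_neg (show ¬ (s(a, b) : Sym2 X).IsDiag from h)]
      norm_num
  rw [cT, cdiag] at hsum
  omega

/-- half of f(f-3)+s and (f-1)(f-2)-s are generalized characters -/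
theorem gen_two [Fintype Γ] : IsGeneralizedCharacter Γ (fun g => (((Nat.card (fixedBy X g) : ℕ) : ℂ) * ((Nat.card (fixedBy X g) : ℂ) - 3) + (Nat.card (D (X := X) g) : ℂ)) / 2) := by
  have h1 : IsCharacter Γ (fun g => (Nat.card (fixedBy (Sym2 X) g) : ℂ)) := isCharacter_perm
  have h2 : IsCharacter Γ (fun g => (Nat.card (fixedBy X g) : ℂ)) := isCharacter_perm
  have h3 := gen_sub (gen_sub (gen_of_char h1) (gen_of_char h2)) (gen_of_char h2)
  convert h3 using 1
  ext g
  have h4 : (2 : ℂ) * (Nat.card (fixedBy (Sym2 X) g) : ℂ) = (Nat.card (fixedBy X g) : ℂ) ^ 2 + (Nat.card (fixedBy X g) : ℂ) + (Nat.card (D (X := X) g) : ℂ) := by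
    exact_mod_cast card_sym_fixed g
  simp only [Pi.sub_apply]
  linear_combination (-1/2 : ℂ) * h4

theorem gen_three [Fintype Γ] : IsGeneralizedCharacter Γ (fun g => (((Nat.card (fixedBy X g) : ℂ) - 1) * ((Nat.card (fixedBy X g) : ℂ) - 2) - (Nat.card (D (X := X) g) : ℂ)) / 2) := by
  have h1 : IsCharacter Γ (fun g => (Nat.card (fixedBy (Sym2 X) g) : ℂ)) := isCharacter_perm
  have h2 : IsCharacter Γ (fun g => (Nat.card (fixedBy X g) : ℂ)) := isCharacter_perm
  have h3 := gen_sub (gen_sub (gen_of_char (isCharacter_add (isCharacter_mul h2 h2) isCharacter_one)) (gen_of_char h1)) (gen_of_char h2)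
  convert h3 using 1
  ext g
  have h4 : (2 : ℂ) * (Nat.card (fixedBy (Sym2 X) g) : ℂ) = (Nat.card (fixedBy X g) : ℂ) ^ 2 + (Nat.card (fixedBy X g) : ℂ) + (Nat.card (D (X := X) g) : ℂ) := by
    exact_mod_cast card_sym_fixed g
  simp only [Pi.sub_apply, Pi.add_apply, Pi.mul_apply]
  linear_combination (1/2 : ℂ) * h4

end Sym

section Irr
variable {Γ : Type*} [Group Γ] [Fintype Γ] {X : Type*} [Fintype X] [MulAction Γ X]

theorem cast_df (n k : ℕ) : ((n.descFactorial (k + 1) : ℕ) : ℂ) = (n.descFactorial k : ℂ) * ((n : ℂ) - k) := by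
  rcases le_or_gt k n with h | h
  · rw [Nat.descFactorial_succ]
    push_cast [Nat.cast_sub h]
    ring
  · rw [Nat.descFactorial_of_lt (Nat.lt_succ_of_lt h), Nat.descFactorial_of_lt h]
    simp

theorem sums [IsMultiplyPretransitive Γ X 4] (hk : 4 ≤ Fintype.card X) :
    (∑ g : Γ, (Nat.card (fixedBy X g) : ℂ) = Nat.card Γ) ∧
    (∑ g : Γ, (Nat.card (fixedBy X g) : ℂ) ^ 2 = 2 * Nat.card Γ) ∧
    (∑ g : Γ, (Nat.card (fixedBy X g) : ℂ) ^ 3 = 5 * Nat.card Γ) ∧
    (∑ g : Γ, (Nat.card (fixedBy X g) : ℂ) ^ 4 = 15 * Nat.card Γ) ∧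
    (∑ g : Γ, (Nat.card (D (X := X) g) : ℂ) = Nat.card Γ) ∧
    (∑ g : Γ, (Nat.card (D (X := X) g) : ℂ) * (Nat.card (fixedBy X g) : ℂ) = Nat.card Γ) ∧
    (∑ g : Γ, (Nat.card (D (X := X) g) : ℂ) * (Nat.card (fixedBy X g) : ℂ) ^ 2 = 2 * Nat.card Γ) ∧
    (∑ g : Γ, (Nat.card (D (X := X) g) : ℂ) ^ 2 = 3 * Nat.card Γ) := by
  have hcard : 4 ≤ Nat.card X := by rw [Nat.card_eq_fintype_card]; exact hk
  haveI : IsMultiplyPretransitive Γ X 1 := isMultiplyPretransitive_of_le (n := 4) (by norm_num) hcard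
  haveI : IsMultiplyPretransitive Γ X 2 := isMultiplyPretransitive_of_le (n := 4) (by norm_num) hcard
  haveI : IsMultiplyPretransitive Γ X 3 := isMultiplyPretransitive_of_le (n := 4) (by norm_num) hcard
  have m1 := moment (Γ := Γ) (X := X) (k := 1) (by omega) 1
  have m2 := moment (Γ := Γ) (X := X) (k := 2) (by omega) 1
  have m3 := moment (Γ := Γ) (X := X) (k := 3) (by omega) 1
  have m4 := moment (Γ := Γ) (X := X) (k := 4) (by omega) 1
  have n2 := moment (Γ := Γ) (X := X) (k := 2) (by omega) (Equiv.swap 0 1)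
  have n3 := moment (Γ := Γ) (X := X) (k := 3) (by omega) (Equiv.swap 0 1)
  have n4 := moment (Γ := Γ) (X := X) (k := 4) (by omega) (Equiv.swap 0 1)
  have n5 := moment (Γ := Γ) (X := X) (k := 4) (by omega) (Equiv.swap 0 1 * Equiv.swap 2 3)
  simp only [card_one] at m1 m2 m3 m4
  simp only [card_two] at n2
  simp only [card_three] at n3
  simp only [card_four] at n4
  have c1 : ∑ g : Γ, (Nat.card (fixedBy X g) : ℂ) = Nat.card Γ := by
    have h := congrArg (Nat.cast : ℕ → ℂ) m1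
    rw [Nat.cast_sum] at h
    rw [← h]
    apply Finset.sum_congr rfl
    intro g _
    rw [Nat.descFactorial_one]
  have c2 : ∑ g : Γ, (Nat.card (fixedBy X g) : ℂ) ^ 2 = 2 * Nat.card Γ := by
    have h := congrArg (Nat.cast : ℕ → ℂ) m2
    rw [Nat.cast_sum] at h
    have h2 : ∀ g : Γ, (((Nat.card (fixedBy X g)).descFactorial 2 : ℕ) : ℂ) = (Nat.card (fixedBy X g) : ℂ) ^ 2 - (Nat.card (fixedBy X g) : ℂ) := by
      intro g
      rw [cast_df, Nat.descFactorial_one]
      push_cast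
      ring
    rw [Finset.sum_congr rfl fun g _ => h2 g, Finset.sum_sub_distrib, c1] at h
    linear_combination h
  have c3 : ∑ g : Γ, (Nat.card (fixedBy X g) : ℂ) ^ 3 = 5 * Nat.card Γ := by
    have h := congrArg (Nat.cast : ℕ → ℂ) m3
    rw [Nat.cast_sum] at h
    have h2 : ∀ g : Γ, (((Nat.card (fixedBy X g)).descFactorial 3 : ℕ) : ℂ) = (Nat.card (fixedBy X g) : ℂ) ^ 3 - 3 * (Nat.card (fixedBy X g) : ℂ) ^ 2 + 2 * (Nat.card (fixedBy X g) : ℂ) := by
      intro g
      rw [cast_df, cast_df, Nat.descFactorial_one]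
      push_cast
      ring
    rw [Finset.sum_congr rfl fun g _ => h2 g, Finset.sum_add_distrib, Finset.sum_sub_distrib, ← Finset.mul_sum, ← Finset.mul_sum, c1, c2] at h
    linear_combination h
  have c4 : ∑ g : Γ, (Nat.card (fixedBy X g) : ℂ) ^ 4 = 15 * Nat.card Γ := by
    have h := congrArg (Nat.cast : ℕ → ℂ) m4
    rw [Nat.cast_sum] at h
    have h2 : ∀ g : Γ, (((Nat.card (fixedBy X g)).descFactorial 4 : ℕ) : ℂ) = (Nat.card (fixedBy X g) : ℂ) ^ 4 - 6 * (Nat.card (fixedBy X g) : ℂ) ^ 3 + 11 * (Nat.card (fixedBy X g) : ℂ) ^ 2 - 6 * (Nat.card (fixedBy X g) : ℂ) := by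
      intro g
      rw [cast_df, cast_df, cast_df, Nat.descFactorial_one]
      push_cast
      ring
    rw [Finset.sum_congr rfl fun g _ => h2 g, Finset.sum_sub_distrib, Finset.sum_add_distrib, Finset.sum_sub_distrib, ← Finset.mul_sum, ← Finset.mul_sum, ← Finset.mul_sum, c1, c2, c3] at h
    linear_combination h
  have d2 : ∑ g : Γ, (Nat.card (D (X := X) g) : ℂ) = Nat.card Γ := by
    exact_mod_cast n2
  have d3 : ∑ g : Γ, (Nat.card (D (X := X) g) : ℂ) * (Nat.card (fixedBy X g) : ℂ) = Nat.card Γ := by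
    exact_mod_cast n3
  have d4 : ∑ g : Γ, (Nat.card (D (X := X) g) : ℂ) * (Nat.card (fixedBy X g) : ℂ) ^ 2 = 2 * Nat.card Γ := by
    have h := congrArg (Nat.cast : ℕ → ℂ) n4
    rw [Nat.cast_sum] at h
    have h2 : ∀ g : Γ, ((Nat.card (D (X := X) g) * (Nat.card (fixedBy X g)).descFactorial 2 : ℕ) : ℂ) = (Nat.card (D (X := X) g) : ℂ) * (Nat.card (fixedBy X g) : ℂ) ^ 2 - (Nat.card (D (X := X) g) : ℂ) * (Nat.card (fixedBy X g) : ℂ) := by
      intro g
      rw [Nat.cast_mul, cast_df, Nat.descFactorial_one]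
      push_cast
      ring
    rw [Finset.sum_congr rfl fun g _ => h2 g, Finset.sum_sub_distrib, d3] at h
    linear_combination h
  have d5 : ∑ g : Γ, (Nat.card (D (X := X) g) : ℂ) ^ 2 = 3 * Nat.card Γ := by
    have h2 : ∀ g : Γ, (Nat.card (D (X := X) g) : ℂ) ^ 2 = (Nat.card {e : Fin 4 ↪ X // ∀ i, g • e i = e ((Equiv.swap 0 1 * Equiv.swap 2 3 : Equiv.Perm (Fin 4)) i)} : ℂ) + 2 * (Nat.card (D (X := X) g) : ℂ) := by
      intro g
      rw [sq]
      exact_mod_cast (card_sq (X := X) g).symm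
    rw [Finset.sum_congr rfl fun g _ => h2 g, Finset.sum_add_distrib, ← Finset.mul_sum, d2, ← Nat.cast_sum, n5]
    ring
  exact ⟨c1, c2, c3, c4, d2, d3, d4, d5⟩

theorem irr_one [IsMultiplyPretransitive Γ X 4] (hk : 4 ≤ Fintype.card X) :
    IsIrrCharacter Γ (fun g => (Nat.card (fixedBy X g) : ℂ) - 1) := by
  obtain ⟨c1, c2, c3, c4, d2, d3, d4, d5⟩ := sums (Γ := Γ) (X := X) hk
  apply irr_of_gen_norm_one_pos
  · exact gen_sub (gen_of_char isCharacter_perm) (gen_of_char isCharacter_one)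
  · have hN : (Nat.card Γ : ℂ) ≠ 0 := Nat.cast_ne_zero.2 Nat.card_pos.ne'
    rw [classInner, inv_mul_eq_iff_eq_mul₀ hN, mul_one]
    have h2 : ∀ g : Γ, ((Nat.card (fixedBy X g) : ℂ) - 1) * conj ((Nat.card (fixedBy X g) : ℂ) - 1) = (Nat.card (fixedBy X g) : ℂ) ^ 2 - 2 * (Nat.card (fixedBy X g) : ℂ) + 1 := by
      intro g
      simp only [map_sub, map_one, Complex.conj_natCast]
      ring
    rw [Finset.sum_congr rfl fun g _ => h2 g, Finset.sum_add_distrib, Finset.sum_sub_distrib, ← Finset.mul_sum, c1, c2]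
    simp only [Finset.sum_const, Finset.card_univ, nsmul_eq_mul, mul_one, Nat.card_eq_fintype_card]
    ring
  · have h1 : fixedBy X (1 : Γ) = Set.univ := by ext x; simp
    rw [h1, Nat.card_univ, Nat.card_eq_fintype_card]
    have : (4 : ℝ) ≤ Fintype.card X := by exact_mod_cast hk
    simp only [Complex.sub_re, Complex.natCast_re, Complex.one_re]
    linarith

theorem irr_two [IsMultiplyPretransitive Γ X 4] (hk : 4 ≤ Fintype.card X) :
    IsIrrCharacter Γ (fun g => (((Nat.card (fixedBy X g) : ℕ) : ℂ) * ((Nat.card (fixedBy X g) : ℂ) - 3) + (Nat.card (D (X := X) g) : ℂ)) / 2) := by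
  obtain ⟨c1, c2, c3, c4, d2, d3, d4, d5⟩ := sums (Γ := Γ) (X := X) hk
  apply irr_of_gen_norm_one_pos
  · exact gen_two
  · have hN : (Nat.card Γ : ℂ) ≠ 0 := Nat.cast_ne_zero.2 Nat.card_pos.ne'
    rw [classInner, inv_mul_eq_iff_eq_mul₀ hN, mul_one]
    have h2 : ∀ g : Γ, ((((Nat.card (fixedBy X g) : ℕ) : ℂ) * ((Nat.card (fixedBy X g) : ℂ) - 3) + (Nat.card (D (X := X) g) : ℂ)) / 2) * conj ((((Nat.card (fixedBy X g) : ℕ) : ℂ) * ((Nat.card (fixedBy X g) : ℂ) - 3) + (Nat.card (D (X := X) g) : ℂ)) / 2) =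
        (1/4 : ℂ) * (Nat.card (fixedBy X g) : ℂ) ^ 4 + (-3/2 : ℂ) * (Nat.card (fixedBy X g) : ℂ) ^ 3 + (9/4 : ℂ) * (Nat.card (fixedBy X g) : ℂ) ^ 2 +
        (1/2 : ℂ) * ((Nat.card (D (X := X) g) : ℂ) * (Nat.card (fixedBy X g) : ℂ) ^ 2) + (-3/2 : ℂ) * ((Nat.card (D (X := X) g) : ℂ) * (Nat.card (fixedBy X g) : ℂ)) +
        (1/4 : ℂ) * (Nat.card (D (X := X) g) : ℂ) ^ 2 := by
      intro g
      simp only [map_sub, map_one, Complex.conj_natCast, map_div₀, map_mul, map_add, map_ofNat]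
      ring
    rw [Finset.sum_congr rfl fun g _ => h2 g]
    simp only [Finset.sum_add_distrib]
    simp only [← Finset.mul_sum]
    rw [c2, c3, c4, d3, d4, d5]
    ring
  · have h1 : fixedBy X (1 : Γ) = Set.univ := by ext x; simp
    have h2 : D (X := X) (1 : Γ) = ∅ := by ext x; simp [D]
    rw [h1, h2, Nat.card_univ, Nat.card_eq_fintype_card]
    have : (4 : ℝ) ≤ Fintype.card X := by exact_mod_cast hk
    have h3 : (((Fintype.card X : ℂ) * ((Fintype.card X : ℂ) - 3) + ((Nat.card (∅ : Set X) : ℕ) : ℂ)) / 2) = (((Fintype.card X : ℝ) * ((Fintype.card X : ℝ) - 3) / 2 : ℝ) : ℂ) := by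
      push_cast
      simp
    rw [h3, Complex.ofReal_re]
    have h4 : (0 : ℝ) < (Fintype.card X : ℝ) - 3 := by linarith
    positivity

theorem irr_three [IsMultiplyPretransitive Γ X 4] (hk : 4 ≤ Fintype.card X) :
    IsIrrCharacter Γ (fun g => (((Nat.card (fixedBy X g) : ℂ) - 1) * ((Nat.card (fixedBy X g) : ℂ) - 2) - (Nat.card (D (X := X) g) : ℂ)) / 2) := by
  obtain ⟨c1, c2, c3, c4, d2, d3, d4, d5⟩ := sums (Γ := Γ) (X := X) hk
  apply irr_of_gen_norm_one_pos
  · exact gen_three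
  · have hN : (Nat.card Γ : ℂ) ≠ 0 := Nat.cast_ne_zero.2 Nat.card_pos.ne'
    rw [classInner, inv_mul_eq_iff_eq_mul₀ hN, mul_one]
    have h2 : ∀ g : Γ, ((((Nat.card (fixedBy X g) : ℂ) - 1) * ((Nat.card (fixedBy X g) : ℂ) - 2) - (Nat.card (D (X := X) g) : ℂ)) / 2) * conj ((((Nat.card (fixedBy X g) : ℂ) - 1) * ((Nat.card (fixedBy X g) : ℂ) - 2) - (Nat.card (D (X := X) g) : ℂ)) / 2) =
        (1/4 : ℂ) * (Nat.card (fixedBy X g) : ℂ) ^ 4 + (-3/2 : ℂ) * (Nat.card (fixedBy X g) : ℂ) ^ 3 + (13/4 : ℂ) * (Nat.card (fixedBy X g) : ℂ) ^ 2 + (-3 : ℂ) * (Nat.card (fixedBy X g) : ℂ) +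
        (-1/2 : ℂ) * ((Nat.card (D (X := X) g) : ℂ) * (Nat.card (fixedBy X g) : ℂ) ^ 2) + (3/2 : ℂ) * ((Nat.card (D (X := X) g) : ℂ) * (Nat.card (fixedBy X g) : ℂ)) + (-1 : ℂ) * (Nat.card (D (X := X) g) : ℂ) +
        (1/4 : ℂ) * (Nat.card (D (X := X) g) : ℂ) ^ 2 + 1 := by
      intro g
      simp only [map_sub, map_one, Complex.conj_natCast, map_div₀, map_mul, map_add, map_ofNat]
      ring
    rw [Finset.sum_congr rfl fun g _ => h2 g]
    simp only [Finset.sum_add_distrib]
    simp only [← Finset.mul_sum]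
    rw [c1, c2, c3, c4, d2, d3, d4, d5]
    simp only [Finset.sum_const, Finset.card_univ, nsmul_eq_mul, mul_one, Nat.card_eq_fintype_card]
    ring
  · have h1 : fixedBy X (1 : Γ) = Set.univ := by ext x; simp
    have h2 : D (X := X) (1 : Γ) = ∅ := by ext x; simp [D]
    rw [h1, h2, Nat.card_univ, Nat.card_eq_fintype_card]
    have : (4 : ℝ) ≤ Fintype.card X := by exact_mod_cast hk
    have h3 : ((((Fintype.card X : ℂ) - 1) * ((Fintype.card X : ℂ) - 2) - ((Nat.card (∅ : Set X) : ℕ) : ℂ)) / 2) = ((((Fintype.card X : ℝ) - 1) * ((Fintype.card X : ℝ) - 2) / 2 : ℝ) : ℂ) := by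
      push_cast
      simp
    rw [h3, Complex.ofReal_re]
    have h4 : (0 : ℝ) < (Fintype.card X : ℝ) - 1 := by linarith
    have h5 : (0 : ℝ) < (Fintype.card X : ℝ) - 2 := by linarith
    positivity

end Irr
end CfsgLib.AltZ19
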