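import Cfsg.Agent.LibAltZB19
/-!
# Zeros of the small characters of alternating groups (helper19)
-/
set_option autoImplicit false
set_option linter.all false
open Cfsg MulAction
namespace CfsgLib.AltZ19

theorem fixed_card {n : ℕ} (σ : Equiv.Perm (Fin n)) : Nat.card (fixedBy (Fin n) σ) = n - σ.cycleType.sum := by
  classical
  rw [Equiv.Perm.sum_cycleType]
  have h1 : σ.supportᶜ.card = n - σ.support.card := by
    rw [Finset.card_compl, Fintype.card_fin]
  rw [← h1, Nat.card_eq_fintype_card]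
  rw [← Set.toFinset_card]
  congr 1
  ext x
  simp [Equiv.Perm.mem_support]

theorem D_card {n : ℕ} (σ : Equiv.Perm (Fin n)) (h : 2 ∉ σ.cycleType) : Nat.card (D (X := Fin n) σ) = 0 := by
  classical
  have h1 : D (X := Fin n) σ = ∅ := by
    rw [Set.eq_empty_iff_forall_notMem]
    rintro x ⟨hx, hx2⟩
    change σ x ≠ x at hx
    change σ (σ x) = x at hx2
    apply h
    have hc := Equiv.Perm.isCycle_cycleOf σ hx
    have hc1 : σ.cycleOf x x ≠ x := by rwa [Equiv.Perm.cycleOf_apply_self]
    have hc2 : (σ.cycleOf x) ^ 2 = 1 := by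
      rw [hc.pow_eq_one_iff]
      refine ⟨x, hc1, ?_⟩
      rw [Equiv.Perm.cycleOf_pow_apply_self, pow_two, Equiv.Perm.mul_apply]
      exact hx2
    have hd : orderOf (σ.cycleOf x) = 2 := by
      apply orderOf_eq_prime hc2
      intro h1
      rw [h1] at hc1
      exact hc1 rfl
    rw [Equiv.Perm.cycleType_def, Multiset.mem_map]
    refine ⟨σ.cycleOf x, ?_, ?_⟩
    · exact Equiv.Perm.cycleOf_mem_cycleFactorsFinset_iff.2 (Equiv.Perm.mem_support.2 hx)
    · rw [Function.comp_apply, ← hc.orderOf, hd]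
  rw [h1]
  simp

theorem exists_elem {n : ℕ} (m : Multiset ℕ) (hm : m.sum ≤ n) (h2 : ∀ a ∈ m, 2 ≤ a) (he : Even (m.sum + Multiset.card m)) :
    ∃ σ : alternatingGroup (Fin n), (σ : Equiv.Perm (Fin n)).cycleType = m := by
  obtain ⟨σ, hσ⟩ := (Equiv.Perm.exists_with_cycleType_iff (α := Fin n) (m := m)).2 ⟨by rwa [Fintype.card_fin], h2⟩
  refine ⟨⟨σ, ?_⟩, hσ⟩
  rw [Equiv.Perm.mem_alternatingGroup, Equiv.Perm.sign_of_cycleType, hσ]
  exact he.neg_one_pow

theorem order_dvd {n : ℕ} (σ : alternatingGroup (Fin n)) (k : ℕ) (h : ∀ a ∈ (σ : Equiv.Perm (Fin n)).cycleType, a ∣ k) :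
    orderOf σ ∣ k := by
  rw [← Subgroup.orderOf_coe, ← Equiv.Perm.lcm_cycleType]
  exact Multiset.lcm_dvd.2 h

theorem two_pow {n : ℕ} (σ : alternatingGroup (Fin n)) (h : ∀ a ∈ (σ : Equiv.Perm (Fin n)).cycleType, a ∣ 8) :
    ∃ j : ℕ, orderOf σ = 2 ^ j := by
  have h1 : orderOf σ ∣ 2 ^ 3 := order_dvd σ 8 h
  obtain ⟨j, -, hj⟩ := (Nat.dvd_prime_pow Nat.prime_two).1 h1
  exact ⟨j, hj⟩

theorem elem_odd {n : ℕ} (hn : 7 ≤ n) (ho : n % 2 = 1) :
    ∃ σ : alternatingGroup (Fin n), (∃ j : ℕ, orderOf σ = 2 ^ j) ∧ Nat.card (fixedBy (Fin n) (σ : Equiv.Perm (Fin n))) = 1 := by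
  rcases (by omega : n % 4 = 1 ∨ n % 4 = 3) with h | h
  · obtain ⟨σ, hσ⟩ := exists_elem (n := n) (Multiset.replicate ((n - 1) / 2) 2)
      (by rw [Multiset.sum_replicate, smul_eq_mul]; omega)
      (by intro a ha; rw [Multiset.eq_of_mem_replicate ha])
      (by rw [Multiset.sum_replicate, smul_eq_mul, Multiset.card_replicate, Nat.even_iff]; omega)
    refine ⟨σ, two_pow σ ?_, ?_⟩
    · intro a ha
      rw [hσ] at ha
      rw [Multiset.eq_of_mem_replicate ha]
      norm_num
    · rw [fixed_card, hσ, Multiset.sum_replicate, smul_eq_mul]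
      omega
  · obtain ⟨σ, hσ⟩ := exists_elem (n := n) (4 ::ₘ Multiset.replicate ((n - 5) / 2) 2)
      (by rw [Multiset.sum_cons, Multiset.sum_replicate, smul_eq_mul]; omega)
      (by
        intro a ha
        rcases Multiset.mem_cons.1 ha with rfl | ha
        · norm_num
        · rw [Multiset.eq_of_mem_replicate ha])
      (by rw [Multiset.sum_cons, Multiset.card_cons, Multiset.sum_replicate, smul_eq_mul, Multiset.card_replicate, Nat.even_iff]; omega)
    refine ⟨σ, two_pow σ ?_, ?_⟩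
    · intro a ha
      rw [hσ] at ha
      rcases Multiset.mem_cons.1 ha with rfl | ha
      · norm_num
      · rw [Multiset.eq_of_mem_replicate ha]
        norm_num
    · rw [fixed_card, hσ, Multiset.sum_cons, Multiset.sum_replicate, smul_eq_mul]
      omega

theorem elem_even {n c : ℕ} (hn : 7 ≤ n) (hc : c ≤ 2) (ho : (n - c) % 4 = 0) :
    ∃ σ : alternatingGroup (Fin n), (∃ j : ℕ, orderOf σ = 2 ^ j) ∧ Nat.card (fixedBy (Fin n) (σ : Equiv.Perm (Fin n))) = c ∧
      Nat.card (D (X := Fin n) (σ : Equiv.Perm (Fin n))) = 0 := by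
  rcases (by omega : (n - c) % 8 = 0 ∨ (n - c) % 8 = 4) with h | h
  · obtain ⟨σ, hσ⟩ := exists_elem (n := n) (Multiset.replicate ((n - c) / 4) 4)
      (by rw [Multiset.sum_replicate, smul_eq_mul]; omega)
      (by intro a ha; rw [Multiset.eq_of_mem_replicate ha]; norm_num)
      (by rw [Multiset.sum_replicate, smul_eq_mul, Multiset.card_replicate, Nat.even_iff]; omega)
    refine ⟨σ, two_pow σ ?_, ?_, D_card _ ?_⟩
    · intro a ha
      rw [hσ] at ha
      rw [Multiset.eq_of_mem_replicate ha]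
      norm_num
    · rw [fixed_card, hσ, Multiset.sum_replicate, smul_eq_mul]
      omega
    · intro ha
      rw [hσ] at ha
      exact absurd (Multiset.eq_of_mem_replicate ha) (by norm_num)
  · have h12 : 12 ≤ n - c := by omega
    obtain ⟨σ, hσ⟩ := exists_elem (n := n) (8 ::ₘ Multiset.replicate ((n - c - 8) / 4) 4)
      (by rw [Multiset.sum_cons, Multiset.sum_replicate, smul_eq_mul]; omega)
      (by
        intro a ha
        rcases Multiset.mem_cons.1 ha with rfl | ha
        · norm_num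
        · rw [Multiset.eq_of_mem_replicate ha]; norm_num)
      (by rw [Multiset.sum_cons, Multiset.card_cons, Multiset.sum_replicate, smul_eq_mul, Multiset.card_replicate, Nat.even_iff]; omega)
    refine ⟨σ, two_pow σ ?_, ?_, D_card _ ?_⟩
    · intro a ha
      rw [hσ] at ha
      rcases Multiset.mem_cons.1 ha with rfl | ha
      · norm_num
      · rw [Multiset.eq_of_mem_replicate ha]
        norm_num
    · rw [fixed_card, hσ, Multiset.sum_cons, Multiset.sum_replicate, smul_eq_mul]
      omega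
    · intro ha
      rw [hσ] at ha
      rcases Multiset.mem_cons.1 ha with h | ha
      · exact absurd h (by norm_num)
      · exact absurd (Multiset.eq_of_mem_replicate ha) (by norm_num)

theorem elem_three {n c : ℕ} (hn : 7 ≤ n) (hc : c ≤ 2) (ho : (n - c) % 3 = 0) :
    ∃ σ : alternatingGroup (Fin n), orderOf σ = 3 ∧ Nat.card (fixedBy (Fin n) (σ : Equiv.Perm (Fin n))) = c ∧
      Nat.card (D (X := Fin n) (σ : Equiv.Perm (Fin n))) = 0 := by
  obtain ⟨σ, hσ⟩ := exists_elem (n := n) (Multiset.replicate ((n - c) / 3) 3)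
    (by rw [Multiset.sum_replicate, smul_eq_mul]; omega)
    (by intro a ha; rw [Multiset.eq_of_mem_replicate ha]; norm_num)
    (by rw [Multiset.sum_replicate, smul_eq_mul, Multiset.card_replicate, Nat.even_iff]; omega)
  refine ⟨σ, ?_, ?_, D_card _ ?_⟩
  · have h1 : orderOf σ ∣ 3 := by
      apply order_dvd
      intro a ha
      rw [hσ] at ha
      rw [Multiset.eq_of_mem_replicate ha]
    rcases (Nat.dvd_prime Nat.prime_three).1 h1 with h | h
    · exfalso
      rw [orderOf_eq_one_iff] at h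
      rw [h] at hσ
      have h3 : Multiset.card (Equiv.Perm.cycleType ((1 : alternatingGroup (Fin n)) : Equiv.Perm (Fin n))) = 0 := by
        rw [Subgroup.coe_one, Equiv.Perm.cycleType_one, Multiset.card_zero]
      rw [hσ, Multiset.card_replicate] at h3
      omega
    · exact h
  · rw [fixed_card, hσ, Multiset.sum_replicate, smul_eq_mul]
    omega
  · intro ha
    rw [hσ] at ha
    exact absurd (Multiset.eq_of_mem_replicate ha) (by norm_num)

end CfsgLib.AltZ19
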