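import Cfsg.Agent.LibSylCen27
import Cfsg.Agent.LibH22POrd
import Cfsg.Agent.LibH22Exist
import Cfsg.Agent.LibH22OForms

set_option autoImplicit false

/-! Eichler elements as a total function, root subgroups of totally singular lines. -/

namespace CfsgLib.AutO27

open Cfsg.Agent.H22 CfsgLib.SylCen27 Module

variable {F V : Type*} [Field F] [AddCommGroup V] [Module F V] {Q : QuadraticForm F V}

local notation "B" => QuadraticMap.polar Q

open Classical in
/-- total Eichler element -/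
noncomputable def E (Q : QuadraticForm F V) (v w : V) : EG Q :=
  if h : Q v = 0 ∧ QuadraticMap.polar Q v w = 0 then ⟨oEich Q v w h.1 h.2, oEich_mem v w h.1 h.2⟩ else 1

theorem E_def {v w : V} (hv : Q v = 0) (hw : B v w = 0) : E Q v w = ⟨oEich Q v w hv hw, oEich_mem v w hv hw⟩ := by
  unfold E; rw [dif_pos ⟨hv, hw⟩]

theorem E_apply {v w : V} (hv : Q v = 0) (hw : B v w = 0) (x : V) :
    (E Q v w).1.1 x = x + B v x • w - B w x • v - (Q w * B v x) • v := by
  rw [E_def hv hw]; exact oEich_apply v w hv hw x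

theorem g_ext {g h : EG Q} (H : ∀ x, g.1.1 x = h.1.1 x) : g = h := Subtype.ext (og_ext H)

theorem mul_app (g h : EG Q) (x : V) : (g * h).1.1 x = g.1.1 (h.1.1 x) := rfl

theorem one_app (x : V) : (1 : EG Q).1.1 x = x := rfl

theorem inv_app (g : EG Q) (x : V) : (g⁻¹).1.1 (g.1.1 x) = x := og_inv_apply' g.1 x

theorem app_inv (g : EG Q) (x : V) : g.1.1 ((g⁻¹).1.1 x) = x := og_inv_apply g.1 x

theorem g_polar (g : EG Q) (x y : V) : B (g.1.1 x) (g.1.1 y) = B x y := og_polar g.1 x y

theorem g_Q (g : EG Q) (x : V) : Q (g.1.1 x) = Q x := og_Q g.1 x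

theorem bsymm (x y : V) : B x y = B y x := QuadraticMap.polar_comm Q x y

theorem E_conj (g : EG Q) (v w : V) : g * E Q v w * g⁻¹ = E Q (g.1.1 v) (g.1.1 w) := by
  by_cases h : Q v = 0 ∧ B v w = 0
  · have h' : Q (g.1.1 v) = 0 ∧ B (g.1.1 v) (g.1.1 w) = 0 := by rw [g_Q, g_polar]; exact h
    rw [E_def h.1 h.2, E_def h'.1 h'.2]
    exact Subtype.ext (conj_oEich g.1 v w _ _ h.1 h.2 h'.1 h'.2 rfl rfl)
  · have h' : ¬ (Q (g.1.1 v) = 0 ∧ B (g.1.1 v) (g.1.1 w) = 0) := by rw [g_Q, g_polar]; exact h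
    unfold E
    rw [dif_neg h, dif_neg h', mul_one, mul_inv_cancel]

theorem bself {v : V} (hv : Q v = 0) : B v v = 0 := by rw [pself, hv, mul_zero]

theorem E_mul {v w w' : V} (hv : Q v = 0) (hw : B v w = 0) (hw' : B v w' = 0) : E Q v w * E Q v w' = E Q v (w + w') := by
  have h3 : B v (w + w') = 0 := by rw [QuadraticMap.polar_add_right, hw, hw', add_zero]
  apply g_ext
  intro x
  rw [mul_app, E_apply hv hw, E_apply hv hw', E_apply hv h3, qadd]
  simp only [QuadraticMap.polar_sub_right, QuadraticMap.polar_add_right, QuadraticMap.polar_smul_right, QuadraticMap.polar_add_left,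
    bself hv, hw, hw', smul_eq_mul, mul_zero, add_zero, sub_zero, bsymm w v]
  module

theorem E_zero {v : V} : E Q v 0 = 1 := by
  by_cases hv : Q v = 0
  · have h0 : B v 0 = 0 := by simp
    apply g_ext
    intro x
    rw [E_apply hv h0, one_app]
    simp
  · unfold E
    rw [dif_neg (fun h => hv h.1)]

theorem E_inv {v w : V} (hv : Q v = 0) (hw : B v w = 0) : (E Q v w)⁻¹ = E Q v (-w) := by
  have h2 : B v (-w) = 0 := by rw [QuadraticMap.polar_neg_right, hw, neg_zero]
  rw [inv_eq_iff_mul_eq_one, E_mul hv hw h2, add_neg_cancel, E_zero]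

theorem E_add_self {v w : V} (hv : Q v = 0) (hw : B v w = 0) (a : F) : E Q v (w + a • v) = E Q v w := by
  have h3 : B v (w + a • v) = 0 := by rw [QuadraticMap.polar_add_right, QuadraticMap.polar_smul_right, hw, bself hv, smul_zero, add_zero]
  apply g_ext
  intro x
  rw [E_apply hv h3, E_apply hv hw, qadd, qsmul, hv]
  simp only [QuadraticMap.polar_add_left, QuadraticMap.polar_smul_left, QuadraticMap.polar_smul_right, smul_eq_mul, bsymm w v, hw]
  module

theorem E_smul_self {v : V} (hv : Q v = 0) (a : F) : E Q v (a • v) = 1 := by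
  have h := E_add_self (Q := Q) (w := 0) hv (by simp) a
  rwa [zero_add, E_zero] at h

theorem E_smul_left {v w : V} (hv : Q v = 0) (hw : B v w = 0) (a : F) : E Q (a • v) w = E Q v (a • w) := by
  have h1 : Q (a • v) = 0 := by rw [qsmul, hv, mul_zero]
  have h2 : B (a • v) w = 0 := by rw [QuadraticMap.polar_smul_left, hw, smul_zero]
  have h3 : B v (a • w) = 0 := by rw [QuadraticMap.polar_smul_right, hw, smul_zero]
  apply g_ext
  intro x
  rw [E_apply h1 h2, E_apply hv h3, qsmul]
  simp only [QuadraticMap.polar_smul_left, smul_eq_mul]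
  module

theorem E_swap {v u : V} (hv : Q v = 0) (hu : Q u = 0) (hw : B v u = 0) : E Q v u = E Q u (-v) := by
  have h3 : B u (-v) = 0 := by rw [QuadraticMap.polar_neg_right, bsymm u v, hw, neg_zero]
  apply g_ext
  intro x
  rw [E_apply hv hw, E_apply hu h3, QuadraticMap.map_neg, hv, hu]
  simp only [QuadraticMap.polar_neg_left]
  module

theorem exists_HP (hQ : (QuadraticMap.polarBilin Q).Nondegenerate) {v : V} (hv0 : v ≠ 0) (hv : Q v = 0) :
    ∃ f, HP Q v f := by
  obtain ⟨x, hx⟩ := exists_polar_ne hQ hv0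
  rw [bsymm] at hx
  obtain ⟨y, hy⟩ : ∃ y, y = (B v x)⁻¹ • x := ⟨_, rfl⟩
  have hvy : B v y = 1 := by rw [hy, QuadraticMap.polar_smul_right, smul_eq_mul, inv_mul_cancel₀ hx]
  refine ⟨y - Q y • v, hv, ?_, ?_⟩
  · rw [qsub, qsmul, hv, QuadraticMap.polar_smul_right, bsymm, hvy, smul_eq_mul]; ring
  · rw [QuadraticMap.polar_sub_right, QuadraticMap.polar_smul_right, hvy, bself hv, smul_zero, sub_zero]

/-- fixed `v` and `v^⊥ / v`: an Eichler element -/
theorem eq_E_of (hQ : (QuadraticMap.polarBilin Q).Nondegenerate) {v : V} (hv0 : v ≠ 0) (hv : Q v = 0) (g : EG Q)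
    (h1 : g.1.1 v = v) (h2 : ∀ x, B v x = 0 → ∃ c : F, g.1.1 x = x + c • v) : ∃ y, B v y = 0 ∧ g = E Q v y := by
  obtain ⟨f, hf⟩ := exists_HP hQ hv0 hv
  obtain ⟨y, hy⟩ : ∃ y, y = g.1.1 f - f := ⟨_, rfl⟩
  have hvy : B v y = 0 := by
    rw [hy, QuadraticMap.polar_sub_right, hf.2.2]
    conv_lhs => rw [← h1]
    rw [g_polar, hf.2.2, sub_self]
  have hgf : g.1.1 f = f + y := by rw [hy]; abel
  have hq : B f y + Q y = 0 := by
    have h3 := g_Q g f
    rw [hgf, qadd, hf.2.1] at h3
    linear_combination h3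
  have hEf : (E Q v y).1.1 f = f + y := by
    rw [E_apply hv hvy, hf.2.2, mul_one, one_smul, bsymm y f]
    have h4 : f + y - B f y • v - Q y • v = f + y - (B f y + Q y) • v := by module
    rw [h4, hq, zero_smul, sub_zero]
  have hEv : (E Q v y).1.1 v = v := by
    rw [E_apply hv hvy, bself hv, bsymm y v, hvy]; simp
  refine ⟨y, hvy, ?_⟩
  obtain ⟨h, hh⟩ : ∃ h, h = (E Q v y)⁻¹ * g := ⟨_, rfl⟩
  have hg : g = E Q v y * h := by rw [hh]; group
  have hhv : h.1.1 v = v := by
    rw [hh, mul_app, h1]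
    have h3 := inv_app (E Q v y) v
    rwa [hEv] at h3
  have hhf : h.1.1 f = f := by
    rw [hh, mul_app, hgf, ← hEf]
    exact inv_app (E Q v y) f
  have hh1 : h = 1 := by
    apply g_ext
    intro x
    rw [one_app]
    obtain ⟨w, hw⟩ : ∃ w, w = x - B f x • v - B v x • f := ⟨_, rfl⟩
    have hwv : B v w = 0 := by
      rw [hw]
      simp only [QuadraticMap.polar_sub_right, QuadraticMap.polar_smul_right, hf.ee, hf.2.2, smul_eq_mul]; ring
    have hwf : B w f = 0 := by
      rw [hw]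
      simp only [QuadraticMap.polar_sub_left, QuadraticMap.polar_smul_left, hf.ff, hf.2.2, smul_eq_mul, bsymm x f]; ring
    obtain ⟨c, hc⟩ := h2 w hwv
    have hEw : (E Q v y)⁻¹.1.1 (w + c • v) = w + (c + B y w) • v := by
      rw [E_inv hv hvy, E_apply hv (by rw [QuadraticMap.polar_neg_right, hvy, neg_zero]), QuadraticMap.map_neg]
      simp only [QuadraticMap.polar_neg_left, QuadraticMap.polar_add_right, QuadraticMap.polar_smul_right, bself hv, hwv,
        bsymm y v, hvy, smul_eq_mul, mul_zero, add_zero]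
      module
    have hhw : h.1.1 w = w + (c + B y w) • v := by rw [hh, mul_app, hc, hEw]
    have h5 : B (h.1.1 w) (h.1.1 f) = 0 := by rw [g_polar, hwf]
    rw [hhw, hhf, QuadraticMap.polar_add_left, QuadraticMap.polar_smul_left, hwf, hf.2.2, zero_add, smul_eq_mul, mul_one] at h5
    rw [h5, zero_smul, add_zero] at hhw
    have hx : x = w + B f x • v + B v x • f := by rw [hw]; abel
    rw [hx, map_add, map_add, map_smul, map_smul, hhw, hhv, hhf]
  rw [hg, hh1, mul_one]

end CfsgLib.AutO27
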