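import Cfsg.Agent.LibAutO27a

set_option autoImplicit false

/-! Totally singular lines and their root subgroups: commuting and adjacency. -/

namespace CfsgLib.AutO27

open Cfsg.Agent.H22 CfsgLib.SylCen27 Module

variable {F V : Type*} [Field F] [AddCommGroup V] [Module F V] {Q : QuadraticForm F V}

local notation "B" => QuadraticMap.polar Q

/-- elements whose commutator space is in `L` -/
def R (Q : QuadraticForm F V) (L : Submodule F V) : Subgroup (EG Q) where
  carrier := {g | ∀ x, g.1.1 x - x ∈ L}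
  mul_mem' := by
    intro a b ha hb x
    have h : (a * b).1.1 x - x = (a.1.1 (b.1.1 x) - b.1.1 x) + (b.1.1 x - x) := by rw [mul_app]; abel
    rw [h]
    exact L.add_mem (ha _) (hb _)
  one_mem' := by intro x; rw [one_app, sub_self]; exact L.zero_mem
  inv_mem' := by
    intro a ha x
    have h := L.neg_mem (ha ((a⁻¹).1.1 x))
    rwa [app_inv, neg_sub] at h

theorem mem_R_iff {L : Submodule F V} {g : EG Q} : g ∈ R Q L ↔ ∀ x, g.1.1 x - x ∈ L := Iff.rfl

/-- totally singular line -/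
structure TL (Q : QuadraticForm F V) (L : Submodule F V) : Prop where
  fr : finrank F L = 2
  sing : ∀ x ∈ L, Q x = 0

theorem TL.polar {L : Submodule F V} (h : TL Q L) {x y : V} (hx : x ∈ L) (hy : y ∈ L) : B x y = 0 := by
  have h1 := h.sing _ (L.add_mem hx hy)
  rw [qadd, h.sing _ hx, h.sing _ hy] at h1
  linear_combination h1

theorem TL.finite {L : Submodule F V} (h : TL Q L) : FiniteDimensional F L :=
  FiniteDimensional.of_finrank_pos (by rw [h.fr]; norm_num)

theorem TL.exists_ne {L : Submodule F V} (h : TL Q L) : ∃ v ∈ L, v ≠ 0 := by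
  by_contra hcon
  push Not at hcon
  have : L = ⊥ := by
    rw [eq_bot_iff]
    intro x hx
    rw [Submodule.mem_bot]
    exact hcon x hx
  have h1 := h.fr
  rw [this, finrank_bot] at h1
  omega

theorem finrank_pair {v u : V} (hv0 : v ≠ 0) (hu : ∀ c : F, u ≠ c • v) : finrank F (Submodule.span F {v, u}) = 2 := by
  have h : LinearIndependent F ![v, u] := (LinearIndependent.pair_iff' hv0).2 fun a h => hu a h.symm
  have h1 := finrank_span_eq_card h
  rw [Fintype.card_fin] at h1
  have h2 : ({v, u} : Set V) = Set.range ![v, u] := by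
    ext x
    simp only [Set.mem_insert_iff, Set.mem_singleton_iff, Set.mem_range, Fin.exists_fin_two, Matrix.cons_val_zero,
      Matrix.cons_val_one, eq_comm]
  rw [h2, h1]

theorem TL.eq_span {L : Submodule F V} (h : TL Q L) {v u : V} (hv : v ∈ L) (hu : u ∈ L) (hv0 : v ≠ 0) (hind : ∀ c : F, u ≠ c • v) :
    L = Submodule.span F {v, u} := by
  haveI := h.finite
  symm
  apply Submodule.eq_of_le_of_finrank_eq
  · rw [Submodule.span_le]
    intro x hx
    rcases hx with rfl | rfl
    · exact hv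
    · exact hu
  · rw [finrank_pair hv0 hind, h.fr]

theorem TL.exists_other {L : Submodule F V} (h : TL Q L) {v : V} (hv0 : v ≠ 0) :
    ∃ u ∈ L, ∀ c : F, u ≠ c • v := by
  haveI := h.finite
  by_contra hcon
  push Not at hcon
  have h1 : L ≤ Submodule.span F {v} := by
    intro x hx
    obtain ⟨c, hc⟩ := hcon x hx
    rw [Submodule.mem_span_singleton]
    exact ⟨c, hc.symm⟩
  have h2 := Submodule.finrank_mono h1
  rw [h.fr, finrank_span_singleton hv0] at h2
  omega

theorem mem_span2 {v u x : V} (h : x ∈ Submodule.span F {v, u}) : ∃ a b : F, x = a • v + b • u := by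
  obtain ⟨a, b, h⟩ := Submodule.mem_span_pair.1 h
  exact ⟨a, b, h.symm⟩

theorem TL.span {v u : V} (hv : Q v = 0) (hu : Q u = 0) (hvu : B v u = 0) (hv0 : v ≠ 0) (hind : ∀ c : F, u ≠ c • v) :
    TL Q (Submodule.span F {v, u}) where
  fr := finrank_pair hv0 hind
  sing := by
    intro x hx
    obtain ⟨a, b, rfl⟩ := mem_span2 hx
    rw [qadd, qsmul, qsmul, hv, hu, QuadraticMap.polar_smul_left, QuadraticMap.polar_smul_right, hvu]; simp

section
variable [FiniteDimensional F V]

theorem perp_perp (hQ : (QuadraticMap.polarBilin Q).Nondegenerate) {L : Submodule F V} {z : V} (hz : z ∉ L) :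
    ∃ x, (∀ y ∈ L, B y x = 0) ∧ B z x ≠ 0 := by
  by_contra hcon
  push Not at hcon
  apply hz
  have hR : (QuadraticMap.polarBilin Q).IsRefl := polar_isSymm.isRefl
  rw [← LinearMap.BilinForm.orthogonal_orthogonal hQ hR L, LinearMap.BilinForm.mem_orthogonal_iff]
  intro w hw
  rw [LinearMap.BilinForm.mem_orthogonal_iff] at hw
  have h1 := hcon w (fun y hy => hw y hy)
  show B w z = 0
  rw [bsymm]; exact h1

theorem dual_pair (hQ : (QuadraticMap.polarBilin Q).Nondegenerate) {v u : V} (hind : ∀ c : F, u ≠ c • v) :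
    ∃ x, B v x = 0 ∧ B u x = 1 := by
  obtain ⟨x, hx1, hx2⟩ := perp_perp hQ (L := Submodule.span F {v}) (z := u) (by
    rw [Submodule.mem_span_singleton]
    rintro ⟨c, hc⟩
    exact hind c hc.symm)
  refine ⟨(B u x)⁻¹ • x, ?_, ?_⟩
  · rw [QuadraticMap.polar_smul_right, hx1 v (Submodule.mem_span_singleton_self v), smul_zero]
  · rw [QuadraticMap.polar_smul_right, smul_eq_mul, inv_mul_cancel₀ hx2]

theorem ind_symm {v u : V} (hv0 : v ≠ 0) (hind : ∀ c : F, u ≠ c • v) : ∀ c : F, v ≠ c • u := by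
  intro c hc
  have hc0 : c ≠ 0 := by
    rintro rfl
    rw [zero_smul] at hc
    exact hv0 hc
  exact hind c⁻¹ (by rw [hc, smul_smul, inv_mul_cancel₀ hc0, one_smul])

theorem ind_ne {v u : V} (hind : ∀ c : F, u ≠ c • v) : u ≠ 0 := by
  intro h
  exact hind 0 (by rw [h, zero_smul])

theorem E_mem_R {L : Submodule F V} (h : TL Q L) {v u : V} (hv : v ∈ L) (hu : u ∈ L) : E Q v u ∈ R Q L := by
  intro x
  rw [E_apply (h.sing _ hv) (h.polar hv hu)]
  have : x + B v x • u - B u x • v - (Q u * B v x) • v - x = B v x • u - (B u x + Q u * B v x) • v := by module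
  rw [this]
  exact L.sub_mem (L.smul_mem _ hu) (L.smul_mem _ hv)

theorem R_mem_iff (hQ : (QuadraticMap.polarBilin Q).Nondegenerate) {L : Submodule F V} (h : TL Q L) {v u : V} (hv : v ∈ L) (hu : u ∈ L)
    (hv0 : v ≠ 0) (hind : ∀ c : F, u ≠ c • v) (g : EG Q) : g ∈ R Q L ↔ ∃ b : F, g = E Q v (b • u) := by
  constructor
  swap
  · rintro ⟨b, rfl⟩
    exact E_mem_R h hv (L.smul_mem _ hu)
  intro hg
  have hfix : ∀ y, (∀ z ∈ L, B z y = 0) → g.1.1 y = y := by
    intro y hy
    rw [← sub_eq_zero]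
    apply hQ.1
    intro x
    show B (g.1.1 y - y) x = 0
    rw [QuadraticMap.polar_sub_left]
    have h1 : B (g.1.1 y) x = B y ((g⁻¹).1.1 x) := by
      rw [← g_polar g y, app_inv]
    rw [h1, ← QuadraticMap.polar_sub_right, bsymm]
    exact hy _ ((R Q L).inv_mem hg x)
  have hspan : ∀ x ∈ L, ∃ a b : F, x = a • v + b • u := by
    intro x hx
    rw [h.eq_span hv hu hv0 hind] at hx
    exact mem_span2 hx
  have hgv : g.1.1 v = v := hfix v fun z hz => h.polar hz hv
  obtain ⟨y, hy, rfl⟩ := eq_E_of hQ hv0 (h.sing _ hv) g hgv (by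
    intro x hx
    by_cases hux : B u x = 0
    · refine ⟨0, ?_⟩
      rw [zero_smul, add_zero]
      apply hfix
      intro z hz
      obtain ⟨a, b, rfl⟩ := hspan z hz
      rw [QuadraticMap.polar_add_left, QuadraticMap.polar_smul_left, QuadraticMap.polar_smul_left, hx, hux]; simp
    · obtain ⟨a, b, hab⟩ := hspan _ (hg x)
      have hgx : g.1.1 x = x + (a • v + b • u) := by rw [← hab]; abel
      have h2 := g_Q g x
      rw [hgx, qadd, h.sing _ (L.add_mem (L.smul_mem a hv) (L.smul_mem b hu)), QuadraticMap.polar_add_right,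
        QuadraticMap.polar_smul_right, QuadraticMap.polar_smul_right, bsymm x v, hx, bsymm x u, smul_eq_mul, smul_eq_mul] at h2
      have h3 : b * B u x = 0 := by linear_combination h2
      rw [(mul_eq_zero.1 h3).resolve_right hux, zero_smul, add_zero] at hgx
      exact ⟨a, hgx⟩)
  obtain ⟨x, hx1, hx2⟩ := dual_pair hQ (ind_symm hv0 hind)
  have h1 := hg x
  rw [E_apply (h.sing _ hv) hy, hx2] at h1
  have h2 : y ∈ L := by
    have h3 : y = (x + (1 : F) • y - B y x • v - (Q y * 1) • v - x) + (B y x + Q y) • v := by module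
    rw [h3]
    exact L.add_mem h1 (L.smul_mem _ hv)
  obtain ⟨a, b, rfl⟩ := hspan y h2
  refine ⟨b, ?_⟩
  rw [add_comm, E_add_self (h.sing _ hv)]
  rw [QuadraticMap.polar_smul_right, h.polar hv hu, smul_zero]

theorem R_le (hQ : (QuadraticMap.polarBilin Q).Nondegenerate) {L L' : Submodule F V} (h : TL Q L) (h' : R Q L ≤ R Q L') : L ≤ L' := by
  obtain ⟨v, hv, hv0⟩ := h.exists_ne
  obtain ⟨u, hu, hind⟩ := h.exists_other hv0
  have h1 := h' (E_mem_R h hv hu)
  have h2 : ∀ x, B v x • u - B u x • v ∈ L' := by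
    intro x
    have h3 := h1 x
    rw [E_apply (h.sing _ hv) (h.polar hv hu), h.sing _ hu] at h3
    convert h3 using 1
    module
  rw [h.eq_span hv hu hv0 hind, Submodule.span_le]
  intro x hx
  rcases hx with rfl | rfl
  · obtain ⟨y, hy1, hy2⟩ := dual_pair hQ hind
    have h3 := h2 y
    rw [hy1, hy2, zero_smul, one_smul, zero_sub] at h3
    exact (L'.neg_mem_iff).1 h3
  · obtain ⟨y, hy1, hy2⟩ := dual_pair hQ (ind_symm hv0 hind)
    have h3 := h2 y
    rw [hy1, hy2, zero_smul, one_smul, sub_zero] at h3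
    exact h3

theorem TL.eq_of_le {L L' : Submodule F V} (h : TL Q L) (h' : TL Q L') (hle : L ≤ L') : L = L' :=
  Submodule.eq_of_le_of_finrank_eq hle (by rw [h.fr, h'.fr])

theorem R_inj (hQ : (QuadraticMap.polarBilin Q).Nondegenerate) {L L' : Submodule F V} (h : TL Q L) (h' : TL Q L') (he : R Q L = R Q L') :
    L = L' := h.eq_of_le h' (R_le hQ h he.le)

/-- commuting root groups -/
def Cm (Q : QuadraticForm F V) (L L' : Submodule F V) : Prop := ∀ a ∈ R Q L, ∀ b ∈ R Q L', a * b = b * a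

theorem Cm.symm {L L' : Submodule F V} (h : Cm Q L L') : Cm Q L' L := fun a ha b hb => (h b hb a ha).symm

theorem cm_iff (hQ : (QuadraticMap.polarBilin Q).Nondegenerate) {L L' : Submodule F V} (h : TL Q L) (h' : TL Q L') :
    Cm Q L L' ↔ (∀ x ∈ L, ∀ y ∈ L', B x y = 0) ∨ ∃ x ∈ L, x ∈ L' ∧ x ≠ 0 := by
  constructor
  · intro hc
    by_contra hcon
    push Not at hcon
    obtain ⟨⟨v, hv, y, hy, hvy⟩, hcon⟩ := hcon
    have hv0 : v ≠ 0 := by rintro rfl; exact hvy (by simp)
    have hy0 : y ≠ 0 := by rintro rfl; exact hvy (by simp)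
    obtain ⟨u, hu, hind⟩ := h.exists_other hv0
    obtain ⟨y', hy', hind'⟩ := h'.exists_other hy0
    have h1 := hc _ (E_mem_R h hv hu) _ (E_mem_R h' hy hy')
    obtain ⟨z, hz1, hz2⟩ := dual_pair hQ hind'
    have hbz : (E Q y y').1.1 z = z - y := by
      rw [E_apply (h'.sing _ hy) (h'.polar hy hy'), hz1, hz2, h'.sing _ hy']; module
    have h2 : (E Q y y').1.1 ((E Q v u).1.1 z) = (E Q v u).1.1 ((E Q y y').1.1 z) := by
      rw [← mul_app, ← mul_app, h1]
    rw [hbz, map_sub] at h2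
    have h3 := E_mem_R h' hy hy' ((E Q v u).1.1 z)
    rw [h2] at h3
    have h4 : (E Q v u).1.1 y ∈ L' := by
      rw [← L'.neg_mem_iff]
      convert h3 using 1
      abel
    have h5 := L'.sub_mem h4 hy
    have h6 := E_mem_R h hv hu y
    have h7 := hcon _ h6 h5
    rw [E_apply (h.sing _ hv) (h.polar hv hu), h.sing _ hu, sub_eq_zero] at h7
    have h8 : B v y • u = B u y • v := by
      have h9 : B v y • u - B u y • v = (y + B v y • u - B u y • v - (0 * B v y) • v) - y := by module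
      rw [← sub_eq_zero, h9, h7, sub_self]
    exact hind ((B v y)⁻¹ * B u y) (by rw [mul_smul, ← h8, smul_smul, inv_mul_cancel₀ hvy, one_smul])
  · rintro (hp | ⟨v, hv, hv', hv0⟩) a ha b hb
    · obtain ⟨v, hv, hv0⟩ := h.exists_ne
      obtain ⟨u, hu, hind⟩ := h.exists_other hv0
      obtain ⟨v', hv', hv0'⟩ := h'.exists_ne
      obtain ⟨u', hu', hind'⟩ := h'.exists_other hv0'
      obtain ⟨c, rfl⟩ := (R_mem_iff hQ h hv hu hv0 hind a).1 ha
      obtain ⟨c', rfl⟩ := (R_mem_iff hQ h' hv' hu' hv0' hind' b).1 hb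
      have hfix : ∀ y ∈ L', (E Q v (c • u)).1.1 y = y := by
        intro y hy
        rw [E_apply (h.sing _ hv) (h.polar hv (L.smul_mem _ hu)), hp _ hv _ hy, hp _ (L.smul_mem c hu) _ hy]
        simp
      rw [← mul_inv_eq_iff_eq_mul, E_conj, hfix _ hv', hfix _ (L'.smul_mem _ hu')]
    · obtain ⟨u, hu, hind⟩ := h.exists_other hv0
      obtain ⟨u', hu', hind'⟩ := h'.exists_other hv0
      obtain ⟨c, rfl⟩ := (R_mem_iff hQ h hv hu hv0 hind a).1 ha
      obtain ⟨c', rfl⟩ := (R_mem_iff hQ h' hv' hu' hv0 hind' b).1 hb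
      have e1 := h.polar hv (L.smul_mem c hu)
      have e2 := h'.polar hv' (L'.smul_mem c' hu')
      rw [E_mul (h.sing _ hv) e1 e2, E_mul (h.sing _ hv) e2 e1, add_comm]

/-- adjacency -/
def Ad (Q : QuadraticForm F V) (L L' : Submodule F V) : Prop :=
  L ≠ L' ∧ Cm Q L L' ∧ ∀ a ∈ R Q L, ∀ b ∈ R Q L', ∃ L'', TL Q L'' ∧ a * b ∈ R Q L''

theorem le_of_disjoint (hQ : (QuadraticMap.polarBilin Q).Nondegenerate) {L L' L'' : Submodule F V} (h : TL Q L) (h' : TL Q L')
    (hd : ∀ x ∈ L, x ∈ L' → x = 0) {v u v' u' : V} (hv : v ∈ L) (hu : u ∈ L) (hv0 : v ≠ 0) (hind : ∀ c : F, u ≠ c • v)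
    (hv' : v' ∈ L') (hu' : u' ∈ L') (hm : E Q v u * E Q v' u' ∈ R Q L'') : L ≤ L'' := by
  have key : ∀ a b : V, a ∈ L → b ∈ L → (∀ c : F, a ≠ c • b) → ∃ x, (∀ y ∈ L', B y x = 0) ∧ B b x = 0 ∧ B a x ≠ 0 := by
    intro a b ha hb hab
    obtain ⟨x, hx1, hx2⟩ := perp_perp hQ (L := L' ⊔ Submodule.span F {b}) (z := a) (by
      intro hmem
      obtain ⟨l, hl, w, hw, hlw⟩ := Submodule.mem_sup.1 hmem
      obtain ⟨c, rfl⟩ := Submodule.mem_span_singleton.1 hw
      have h1 : l ∈ L := by
        have : l = a - c • b := by rw [← hlw]; abel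
        rw [this]
        exact L.sub_mem ha (L.smul_mem _ hb)
      rw [hd l h1 hl, zero_add] at hlw
      exact hab c hlw.symm)
    exact ⟨x, fun y hy => hx1 y (Submodule.mem_sup_left hy), hx1 b (Submodule.mem_sup_right (Submodule.mem_span_singleton_self b)), hx2⟩
  have happ : ∀ x, (∀ y ∈ L', B y x = 0) → (E Q v u * E Q v' u').1.1 x - x = B v x • u - B u x • v := by
    intro x hx
    have h1 : (E Q v' u').1.1 x = x := by
      rw [E_apply (h'.sing _ hv') (h'.polar hv' hu'), hx _ hv', hx _ hu']; simp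
    rw [mul_app, h1, E_apply (h.sing _ hv) (h.polar hv hu), h.sing _ hu]
    module
  rw [h.eq_span hv hu hv0 hind, Submodule.span_le]
  intro x hx
  rcases hx with rfl | rfl
  · obtain ⟨y, hy1, hy2, hy3⟩ := key u x hu hv hind
    have h3 := hm y
    rw [happ y hy1, hy2, zero_smul, zero_sub] at h3
    exact (L''.smul_mem_iff hy3).1 ((L''.neg_mem_iff).1 h3)
  · obtain ⟨y, hy1, hy2, hy3⟩ := key v x hv hu (ind_symm hv0 hind)
    have h3 := hm y
    rw [happ y hy1, hy2, zero_smul, sub_zero] at h3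
    exact (L''.smul_mem_iff hy3).1 h3

theorem ad_iff (hQ : (QuadraticMap.polarBilin Q).Nondegenerate) {L L' : Submodule F V} (h : TL Q L) (h' : TL Q L') :
    Ad Q L L' ↔ L ≠ L' ∧ (∀ x ∈ L, ∀ y ∈ L', B x y = 0) ∧ ∃ x ∈ L, x ∈ L' ∧ x ≠ 0 := by
  constructor
  · rintro ⟨hne, hc, hr⟩
    refine ⟨hne, ?_⟩
    rcases (cm_iff hQ h h').1 hc with hp | ⟨v, hv, hv', hv0⟩
    · refine ⟨hp, ?_⟩
      by_contra hcon
      push Not at hcon
      obtain ⟨v, hv, hv0⟩ := h.exists_ne
      obtain ⟨u, hu, hind⟩ := h.exists_other hv0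
      obtain ⟨v', hv', hv0'⟩ := h'.exists_ne
      obtain ⟨u', hu', hind'⟩ := h'.exists_other hv0'
      obtain ⟨L'', hL'', hm⟩ := hr _ (E_mem_R h hv hu) _ (E_mem_R h' hv' hu')
      have h1 := le_of_disjoint hQ h h' hcon hv hu hv0 hind hv' hu' hm
      have h2 := le_of_disjoint hQ h' h (fun x hx hx' => hcon x hx' hx) hv' hu' hv0' hind' hv hu
        (by rw [← hc _ (E_mem_R h hv hu) _ (E_mem_R h' hv' hu')]; exact hm)
      exact hne ((h.eq_of_le hL'' h1).trans (h'.eq_of_le hL'' h2).symm)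
    · refine ⟨?_, v, hv, hv', hv0⟩
      obtain ⟨u, hu, hind⟩ := h.exists_other hv0
      obtain ⟨u', hu', hind'⟩ := h'.exists_other hv0
      obtain ⟨L'', hL'', hm⟩ := hr _ (E_mem_R h hv hu) _ (E_mem_R h' hv' hu')
      have e1 := h.polar hv hu
      have e2 := h'.polar hv' hu'
      rw [E_mul (h.sing _ hv) e1 e2] at hm
      have e3 : B v (u + u') = 0 := by rw [QuadraticMap.polar_add_right, e1, e2, add_zero]
      have huu : B u u' = 0 := by
        by_contra hne0
        have h1 := hm u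
        rw [E_apply (h.sing _ hv) e3, e1, QuadraticMap.polar_add_left, bself (h.sing _ hu), bsymm u' u] at h1
        have h2 : v ∈ L'' := by
          rw [← L''.smul_mem_iff (neg_ne_zero.2 hne0)]
          convert h1 using 1
          module
        obtain ⟨z, hz1, hz2⟩ := dual_pair hQ (ind_symm hv0 hind)
        have h3 := hm z
        rw [E_apply (h.sing _ hv) e3, hz2] at h3
        have h4 : u + u' ∈ L'' := by
          have h5 : u + u' = (z + (1 : F) • (u + u') - B (u + u') z • v - (Q (u + u') * 1) • v - z) + (B (u + u') z + Q (u + u')) • v := by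
            module
          rw [h5]
          exact L''.add_mem h3 (L''.smul_mem _ h2)
        have h6 := hL''.sing _ h4
        rw [qadd, h.sing _ hu, h'.sing _ hu', zero_add, zero_add] at h6
        exact hne0 h6
      intro x hx y hy
      rw [h.eq_span hv hu hv0 hind] at hx
      rw [h'.eq_span hv' hu' hv0 hind'] at hy
      obtain ⟨a, b, rfl⟩ := mem_span2 hx
      obtain ⟨a', b', rfl⟩ := mem_span2 hy
      simp only [QuadraticMap.polar_add_left, QuadraticMap.polar_add_right, QuadraticMap.polar_smul_left, QuadraticMap.polar_smul_right,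
        bself (h.sing _ hv), e2, bsymm u v, e1, huu, smul_zero, add_zero]
  · rintro ⟨hne, hp, v, hv, hv', hv0⟩
    refine ⟨hne, (cm_iff hQ h h').2 (Or.inl hp), ?_⟩
    intro a ha b hb
    obtain ⟨u, hu, hind⟩ := h.exists_other hv0
    obtain ⟨u', hu', hind'⟩ := h'.exists_other hv0
    obtain ⟨c, rfl⟩ := (R_mem_iff hQ h hv hu hv0 hind a).1 ha
    obtain ⟨c', rfl⟩ := (R_mem_iff hQ h' hv' hu' hv0 hind' b).1 hb
    have e1 := h.polar hv (L.smul_mem c hu)
    have e2 := h'.polar hv' (L'.smul_mem c' hu')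
    rw [E_mul (h.sing _ hv) e1 e2]
    by_cases hw : ∀ d : F, c • u + c' • u' ≠ d • v
    · have e3 : B v (c • u + c' • u') = 0 := by rw [QuadraticMap.polar_add_right, e1, e2, add_zero]
      have e4 : Q (c • u + c' • u') = 0 := by
        rw [qadd, h.sing _ (L.smul_mem c hu), h'.sing _ (L'.smul_mem c' hu'), hp _ (L.smul_mem c hu) _ (L'.smul_mem c' hu')]; simp
      have hT := TL.span (h.sing _ hv) e4 e3 hv0 hw
      exact ⟨_, hT, E_mem_R hT (Submodule.subset_span (by simp)) (Submodule.subset_span (by simp))⟩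
    · push Not at hw
      obtain ⟨d, hd⟩ := hw
      rw [hd, E_smul_self (h.sing _ hv)]
      exact ⟨L, h, one_mem _⟩

end

end CfsgLib.AutO27
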