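import Cfsg.Agent.LibAutO27b

set_option autoImplicit false

/-! Recognition of the lines through a point from commuting and adjacency. -/

namespace CfsgLib.AutO27

open Cfsg.Agent.H22 CfsgLib.SylCen27 Module

variable {F V : Type*} [Field F] [AddCommGroup V] [Module F V] {Q : QuadraticForm F V}

local notation "B" => QuadraticMap.polar Q

/-- common neighbours -/
def Nb (Q : QuadraticForm F V) (L1 L2 L : Submodule F V) : Prop := TL Q L ∧ Ad Q L L1 ∧ Ad Q L L2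

/-- property separating the two kinds of pairs -/
def PP (Q : QuadraticForm F V) (L1 L2 : Submodule F V) : Prop :=
  ∃ M U1 U2 U3, Nb Q L1 L2 M ∧ (Nb Q L1 L2 U1 ∧ Nb Q L1 L2 U2 ∧ Nb Q L1 L2 U3) ∧ (Ad Q U1 M ∧ Ad Q U2 M ∧ Ad Q U3 M) ∧
    (U1 ≠ U2 ∧ U1 ≠ U3 ∧ U2 ≠ U3) ∧ (¬ Ad Q U1 U2 ∧ ¬ Ad Q U1 U3 ∧ ¬ Ad Q U2 U3)

/-- the recognized star -/
def St (Q : QuadraticForm F V) (L1 L2 L : Submodule F V) : Prop :=
  TL Q L ∧ Cm Q L L1 ∧ Cm Q L L2 ∧ ∀ L', Nb Q L1 L2 L' → Cm Q L L'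

/-- two lines through a point, not perpendicular -/
structure T2 (Q : QuadraticForm F V) (L1 L2 : Submodule F V) (v x y : V) : Prop where
  h1 : TL Q L1
  h2 : TL Q L2
  v1 : v ∈ L1
  v2 : v ∈ L2
  x1 : x ∈ L1
  y2 : y ∈ L2
  v0 : v ≠ 0
  xy : QuadraticMap.polar Q x y = 1

section
variable {L1 L2 : Submodule F V} {v x y : V}

theorem T2.vx (h : T2 Q L1 L2 v x y) : B v x = 0 := h.h1.polar h.v1 h.x1
theorem T2.vy (h : T2 Q L1 L2 v x y) : B v y = 0 := h.h2.polar h.v2 h.y2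
theorem T2.hp (h : T2 Q L1 L2 v x y) : HP Q x y := ⟨h.h1.sing _ h.x1, h.h2.sing _ h.y2, h.xy⟩
theorem T2.qv (h : T2 Q L1 L2 v x y) : Q v = 0 := h.h1.sing _ h.v1

theorem T2.indx (h : T2 Q L1 L2 v x y) : ∀ c : F, x ≠ c • v := by
  intro c hc
  have h1 := h.xy
  rw [hc, QuadraticMap.polar_smul_left, h.vy, smul_zero] at h1
  exact zero_ne_one h1

theorem T2.indy (h : T2 Q L1 L2 v x y) : ∀ c : F, y ≠ c • v := by
  intro c hc
  have h1 := h.xy
  rw [hc, QuadraticMap.polar_smul_right, bsymm x v, h.vx, smul_zero] at h1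
  exact zero_ne_one h1

theorem T2.eq1 (h : T2 Q L1 L2 v x y) {z : V} (hz : z ∈ L1) : ∃ a b : F, z = a • v + b • x := by
  rw [h.h1.eq_span h.v1 h.x1 h.v0 h.indx] at hz
  exact mem_span2 hz

theorem T2.eq2 (h : T2 Q L1 L2 v x y) {z : V} (hz : z ∈ L2) : ∃ a b : F, z = a • v + b • y := by
  rw [h.h2.eq_span h.v2 h.y2 h.v0 h.indy] at hz
  exact mem_span2 hz

theorem T2.symm (h : T2 Q L1 L2 v x y) : T2 Q L2 L1 v y x :=
  ⟨h.h2, h.h1, h.v2, h.v1, h.y2, h.x1, h.v0, by rw [bsymm]; exact h.xy⟩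

end

theorem partner_of {z x0 : V} (hz : Q z = 0) (h : B z x0 = 1) : HP Q z (x0 - Q x0 • z) := by
  refine ⟨hz, ?_, ?_⟩
  · rw [qsub, qsmul, hz, QuadraticMap.polar_smul_right, bsymm, h, smul_eq_mul]; ring
  · rw [QuadraticMap.polar_sub_right, QuadraticMap.polar_smul_right, h, bself hz, smul_zero, sub_zero]

/-- projection away from a hyperbolic pair -/
def pr (Q : QuadraticForm F V) (x y z : V) : V := z - QuadraticMap.polar Q y z • x - QuadraticMap.polar Q x z • y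

theorem pr_left {x y : V} (h : HP Q x y) (z : V) : B x (pr Q x y z) = 0 := by
  unfold pr
  simp only [QuadraticMap.polar_sub_right, QuadraticMap.polar_smul_right, h.ee, h.2.2, smul_eq_mul]; ring

theorem pr_right {x y : V} (h : HP Q x y) (z : V) : B y (pr Q x y z) = 0 := by
  unfold pr
  simp only [QuadraticMap.polar_sub_right, QuadraticMap.polar_smul_right, h.ff, h.fe, smul_eq_mul]; ring

theorem pr_perp {x y : V} {t : V} (hx : B t x = 0) (hy : B t y = 0) (z : V) : B t (pr Q x y z) = B t z := by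
  unfold pr
  simp only [QuadraticMap.polar_sub_right, QuadraticMap.polar_smul_right, hx, hy, smul_zero, sub_zero]

theorem exists_partner2 (hQ : (QuadraticMap.polarBilin Q).Nondegenerate) {x y : V} (h : HP Q x y) {z : V} (hz0 : z ≠ 0)
    (hz : Q z = 0) (hx : B z x = 0) (hy : B z y = 0) : ∃ w, HP Q z w ∧ B x w = 0 ∧ B y w = 0 := by
  obtain ⟨x0, hx0⟩ := exists_HP hQ hz0 hz
  refine ⟨_, partner_of (x0 := pr Q x y x0) hz (by rw [pr_perp hx hy]; exact hx0.2.2), ?_, ?_⟩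
  · rw [QuadraticMap.polar_sub_right, QuadraticMap.polar_smul_right, pr_left h, bsymm x z, hx, smul_zero, sub_zero]
  · rw [QuadraticMap.polar_sub_right, QuadraticMap.polar_smul_right, pr_right h, bsymm y z, hy, smul_zero, sub_zero]

theorem exists_partner4 (hQ : (QuadraticMap.polarBilin Q).Nondegenerate) {x y : V} (h : HP Q x y) {v f : V} (h' : HP Q v f)
    (hxv : B x v = 0) (hxf : B x f = 0) (hyv : B y v = 0) (hyf : B y f = 0) {z : V} (hz0 : z ≠ 0)
    (hz : Q z = 0) (hx : B z x = 0) (hy : B z y = 0) (hv : B z v = 0) (hf : B z f = 0) :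
    ∃ w, HP Q z w ∧ B x w = 0 ∧ B y w = 0 ∧ B v w = 0 ∧ B f w = 0 := by
  obtain ⟨x0, hx0⟩ := exists_HP hQ hz0 hz
  refine ⟨_, partner_of (x0 := pr Q v f (pr Q x y x0)) hz (by rw [pr_perp hv hf, pr_perp hx hy]; exact hx0.2.2), ?_, ?_, ?_, ?_⟩
  · rw [QuadraticMap.polar_sub_right, QuadraticMap.polar_smul_right, pr_perp hxv hxf, pr_left h, bsymm x z, hx, smul_zero, sub_zero]
  · rw [QuadraticMap.polar_sub_right, QuadraticMap.polar_smul_right, pr_perp hyv hyf, pr_right h, bsymm y z, hy, smul_zero, sub_zero]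
  · rw [QuadraticMap.polar_sub_right, QuadraticMap.polar_smul_right, pr_left h', bsymm v z, hv, smul_zero, sub_zero]
  · rw [QuadraticMap.polar_sub_right, QuadraticMap.polar_smul_right, pr_right h', bsymm f z, hf, smul_zero, sub_zero]

section
variable [FiniteDimensional F V]

theorem cm_of_common (hQ : (QuadraticMap.polarBilin Q).Nondegenerate) {L L' : Submodule F V} (h : TL Q L) (h' : TL Q L') {v : V}
    (hv : v ∈ L) (hv' : v ∈ L') (hv0 : v ≠ 0) : Cm Q L L' := (cm_iff hQ h h').2 (Or.inr ⟨v, hv, hv', hv0⟩)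

/-- **the star of a point** -/
theorem star_iff (hQ : (QuadraticMap.polarBilin Q).Nondegenerate) {L1 L2 : Submodule F V} {v x y : V} (h : T2 Q L1 L2 v x y)
    (L : Submodule F V) : St Q L1 L2 L ↔ TL Q L ∧ v ∈ L := by
  constructor
  swap
  · rintro ⟨hL, hv⟩
    refine ⟨hL, cm_of_common hQ hL h.h1 hv h.v1 h.v0, cm_of_common hQ hL h.h2 hv h.v2 h.v0, ?_⟩
    rintro L' ⟨hL', ha1, ha2⟩
    obtain ⟨-, hp1, -⟩ := (ad_iff hQ hL' h.h1).1 ha1
    obtain ⟨-, -, a, ha, ha', ha0⟩ := (ad_iff hQ hL' h.h2).1 ha2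
    obtain ⟨α, β, rfl⟩ := h.eq2 ha'
    have h3 := hp1 _ ha _ h.x1
    rw [QuadraticMap.polar_add_left, QuadraticMap.polar_smul_left, QuadraticMap.polar_smul_left, h.vx, bsymm y x, h.xy, smul_eq_mul,
      smul_eq_mul, mul_zero, mul_one, zero_add] at h3
    subst h3
    rw [zero_smul, add_zero] at ha ha0
    have hα : α ≠ 0 := by rintro rfl; exact ha0 (zero_smul _ _)
    exact cm_of_common hQ hL hL' hv ((L'.smul_mem_iff hα).1 ha) h.v0
  · rintro ⟨hL, hc1, hc2, hN⟩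
    refine ⟨hL, ?_⟩
    by_contra hvL
    obtain ⟨f, hvf, hxf, hyf⟩ := exists_partner2 hQ h.hp h.v0 h.qv h.vx h.vy
    have key : ∀ (M1 M2 : Submodule F V) (x' y' : V), T2 Q M1 M2 v x' y' → Cm Q L M1 → Cm Q L M2 → ∀ a ∈ L, ∀ b ∈ M1, B a b = 0 := by
      intro M1 M2 x' y' h' hc1 hc2
      rcases (cm_iff hQ hL h'.h1).1 hc1 with hp | ⟨a, ha, ha', ha0⟩
      · exact hp
      · exfalso
        obtain ⟨α, β, rfl⟩ := h'.eq1 ha'
        have hβ : β ≠ 0 := by
          rintro rfl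
          rw [zero_smul, add_zero] at ha ha0
          have hα : α ≠ 0 := by rintro rfl; exact ha0 (zero_smul _ _)
          exact hvL ((L.smul_mem_iff hα).1 ha)
        rcases (cm_iff hQ hL h'.h2).1 hc2 with hp | ⟨b, hb, hb', hb0⟩
        · have h3 := hp _ ha _ h'.y2
          rw [QuadraticMap.polar_add_left, QuadraticMap.polar_smul_left, QuadraticMap.polar_smul_left, h'.vy, h'.xy, smul_eq_mul,
            smul_eq_mul, mul_zero, mul_one, zero_add] at h3
          exact hβ h3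
        · obtain ⟨γ, δ, rfl⟩ := h'.eq2 hb'
          have hδ : δ ≠ 0 := by
            rintro rfl
            rw [zero_smul, add_zero] at hb hb0
            have hα : γ ≠ 0 := by rintro rfl; exact hb0 (zero_smul _ _)
            exact hvL ((L.smul_mem_iff hα).1 hb)
          have h3 := hL.polar ha hb
          rw [QuadraticMap.polar_add_left, QuadraticMap.polar_smul_left, QuadraticMap.polar_smul_left, QuadraticMap.polar_add_right,
            QuadraticMap.polar_add_right, QuadraticMap.polar_smul_right, QuadraticMap.polar_smul_right, QuadraticMap.polar_smul_right,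
            QuadraticMap.polar_smul_right, h'.vy, h'.xy, bself h'.qv, bsymm x' v, h'.vx] at h3
          simp only [smul_eq_mul, mul_zero, mul_one, add_zero, zero_add] at h3
          exact mul_ne_zero hβ hδ h3
    have hp1 := key L1 L2 x y h hc1 hc2
    have hp2 := key L2 L1 y x h.symm hc2 hc1
    obtain ⟨z, hz, hz0⟩ := hL.exists_ne
    obtain ⟨z1, hz1⟩ : ∃ z1, z1 = z - B f z • v := ⟨_, rfl⟩
    have hzv := hp1 _ hz _ h.v1
    have hzx := hp1 _ hz _ h.x1
    have hzy := hp2 _ hz _ h.y2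
    have hzz : z = z1 + B f z • v := by rw [hz1]; abel
    have hz10 : z1 ≠ 0 := by
      intro h0
      rw [h0, zero_add] at hzz
      have hs : B f z ≠ 0 := by
        intro hs
        rw [hs, zero_smul] at hzz
        exact hz0 hzz
      rw [hzz] at hz
      exact hvL ((L.smul_mem_iff hs).1 hz)
    have e1 : Q z1 = 0 := by
      rw [hz1, qsub, qsmul, hL.sing _ hz, h.qv, QuadraticMap.polar_smul_right, hzv]; simp
    have e2 : B z1 x = 0 := by
      rw [hz1, QuadraticMap.polar_sub_left, QuadraticMap.polar_smul_left, hzx, h.vx]; simp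
    have e3 : B z1 y = 0 := by
      rw [hz1, QuadraticMap.polar_sub_left, QuadraticMap.polar_smul_left, hzy, h.vy]; simp
    have e4 : B z1 v = 0 := by
      rw [hz1, QuadraticMap.polar_sub_left, QuadraticMap.polar_smul_left, hzv, bself h.qv]; simp
    have e5 : B z1 f = 0 := by
      rw [hz1, QuadraticMap.polar_sub_left, QuadraticMap.polar_smul_left, hvf.2.2, bsymm z f, smul_eq_mul, mul_one, sub_self]
    obtain ⟨w, hzw, hxw, hyw, hvw, hfw⟩ := exists_partner4 hQ h.hp hvf (by rw [bsymm]; exact h.vx) hxf (by rw [bsymm]; exact h.vy) hyf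
      hz10 e1 e2 e3 e4 e5
    have hwind : ∀ c : F, w ≠ c • v := by
      rintro c rfl
      have := hzw.2.2
      rw [QuadraticMap.polar_smul_right, e4, smul_zero] at this
      exact zero_ne_one this
    have hL' := TL.span h.qv hzw.2.1 hvw h.v0 hwind
    have hv' : v ∈ Submodule.span F {v, w} := Submodule.subset_span (by simp)
    have hw' : w ∈ Submodule.span F {v, w} := Submodule.subset_span (by simp)
    have had : ∀ (M1 M2 : Submodule F V) (x' y' : V), T2 Q M1 M2 v x' y' → B x' w = 0 → B y' w = 0 → Ad Q (Submodule.span F {v, w}) M1 := by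
      intro M1 M2 x' y' h' hx hy
      refine (ad_iff hQ hL' h'.h1).2 ⟨?_, ?_, v, hv', h'.v1, h'.v0⟩
      · intro heq
        have h1 := h'.x1
        rw [← heq] at h1
        obtain ⟨a, b, hab⟩ := mem_span2 h1
        have h2 := h'.xy
        rw [hab, QuadraticMap.polar_add_left, QuadraticMap.polar_smul_left, QuadraticMap.polar_smul_left, h'.vy, bsymm w y', hy] at h2
        simp at h2
      · intro a ha b hb
        obtain ⟨α, β, rfl⟩ := mem_span2 ha
        obtain ⟨γ, δ, rfl⟩ := h'.eq1 hb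
        simp only [QuadraticMap.polar_add_left, QuadraticMap.polar_add_right, QuadraticMap.polar_smul_left, QuadraticMap.polar_smul_right,
          bself h.qv, h'.vx, bsymm w v, hvw, bsymm w x', hx, smul_zero, add_zero]
    have hcm := hN _ ⟨hL', had L1 L2 x y h hxw hyw, had L2 L1 y x h.symm hyw hxw⟩
    have hzw' : B z w = 1 := by
      rw [hzz, QuadraticMap.polar_add_left, QuadraticMap.polar_smul_left, hzw.2.2, hvw, smul_zero, add_zero]
    rcases (cm_iff hQ hL hL').1 hcm with hp | ⟨c, hc, hc', hc0⟩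
    · have h3 := hp _ hz _ hw'
      rw [hzw'] at h3
      exact one_ne_zero h3
    · obtain ⟨α, β, rfl⟩ := mem_span2 hc'
      have h3 := hL.polar hz hc
      rw [QuadraticMap.polar_add_right, QuadraticMap.polar_smul_right, QuadraticMap.polar_smul_right, hzv, hzw', smul_eq_mul, smul_eq_mul,
        mul_zero, mul_one, zero_add] at h3
      subst h3
      rw [zero_smul, add_zero] at hc hc0
      have hα : α ≠ 0 := by rintro rfl; exact hc0 (zero_smul _ _)
      exact hvL ((L.smul_mem_iff hα).1 hc)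

/-- perpendicular disjoint pairs do not have the property -/
theorem not_PP (hQ : (QuadraticMap.polarBilin Q).Nondegenerate) {L1 L2 : Submodule F V} (h1 : TL Q L1) (h2 : TL Q L2)
    (hd : ∀ x ∈ L1, x ∈ L2 → x = 0) : ¬ PP Q L1 L2 := by
  rintro ⟨M, U1, U2, U3, hM, ⟨hU1, hU2, hU3⟩, ⟨ha1, ha2, ha3⟩, ⟨h12, h13, h23⟩, ⟨n12, n13, n23⟩⟩
  have key : ∀ U, Nb Q L1 L2 U → ∃ a b, a ∈ U ∧ b ∈ U ∧ a ∈ L1 ∧ b ∈ L2 ∧ a ≠ 0 ∧ b ≠ 0 ∧ ∀ x ∈ U, ∃ s t : F, x = s • a + t • b := by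
    rintro U ⟨hU, hA1, hA2⟩
    obtain ⟨-, -, a, ha, ha', ha0⟩ := (ad_iff hQ hU h1).1 hA1
    obtain ⟨-, -, b, hb, hb', hb0⟩ := (ad_iff hQ hU h2).1 hA2
    have hind : ∀ c : F, b ≠ c • a := by
      rintro c rfl
      exact hb0 (hd _ (L1.smul_mem _ ha') hb')
    refine ⟨a, b, ha, hb, ha', hb', ha0, hb0, fun x hx => ?_⟩
    rw [hU.eq_span ha hb ha0 hind] at hx
    exact mem_span2 hx
  obtain ⟨a, b, ha, hb, haL, hbL, ha0, hb0, hMs⟩ := key M hM
  have key2 : ∀ U, Nb Q L1 L2 U → Ad Q U M → a ∈ U ∨ b ∈ U := by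
    intro U hU hA
    obtain ⟨-, -, c, hc, hc', hc0⟩ := (ad_iff hQ hU.1 hM.1).1 hA
    obtain ⟨a', b', ha', hb', haL', hbL', ha0', hb0', hUs⟩ := key U hU
    obtain ⟨s, t, hst⟩ := hUs c hc
    obtain ⟨s', t', hst'⟩ := hMs c hc'
    have h3 : s • a' - s' • a = t' • b - t • b' := by
      rw [sub_eq_sub_iff_add_eq_add, ← hst, add_comm, ← hst']
    have h4 : s • a' - s' • a = 0 := hd _ (L1.sub_mem (L1.smul_mem _ haL') (L1.smul_mem _ haL))
      (by rw [h3]; exact L2.sub_mem (L2.smul_mem _ hbL) (L2.smul_mem _ hbL'))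
    have h5 : t' • b - t • b' = 0 := by rw [← h3, h4]
    rw [sub_eq_zero] at h4 h5
    by_cases hs' : s' = 0
    · right
      have ht' : t' ≠ 0 := by
        rintro rfl
        rw [hs', zero_smul, zero_smul, add_zero] at hst'
        exact hc0 hst'
      rw [← U.smul_mem_iff ht', h5]
      exact U.smul_mem _ hb'
    · left
      rw [← U.smul_mem_iff hs', ← h4]
      exact U.smul_mem _ ha'
  have adj : ∀ U U' : Submodule F V, Nb Q L1 L2 U → Nb Q L1 L2 U' → U ≠ U' → (∃ c, c ∈ U ∧ c ∈ U' ∧ c ≠ 0 ∧ (c ∈ L1 ∨ c ∈ L2)) → Ad Q U U' := by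
    rintro U U' hU hU' hne ⟨c, hc, hc', hc0, hcL⟩
    refine (ad_iff hQ hU.1 hU'.1).2 ⟨hne, ?_, c, hc, hc', hc0⟩
    obtain ⟨a1, b1, ha1', hb1', haL1, hbL1, ha01, hb01, hUs⟩ := key U hU
    obtain ⟨a2, b2, ha2', hb2', haL2, hbL2, ha02, hb02, hUs'⟩ := key U' hU'
    -- generic
    have gen : ∀ d d' : V, d ∈ U → d' ∈ U' → B d d' = 0 → (∀ t : F, d ≠ t • c) → (∀ t : F, d' ≠ t • c) →
        ∀ x ∈ U, ∀ y ∈ U', B x y = 0 := by
      intro d d' hd1 hd1' hdd hi hi' x hx y hy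
      rw [hU.1.eq_span hc hd1 hc0 hi] at hx
      rw [hU'.1.eq_span hc' hd1' hc0 hi'] at hy
      obtain ⟨s, t, rfl⟩ := mem_span2 hx
      obtain ⟨s', t', rfl⟩ := mem_span2 hy
      simp only [QuadraticMap.polar_add_left, QuadraticMap.polar_add_right, QuadraticMap.polar_smul_left, QuadraticMap.polar_smul_right,
        hdd, hU.1.polar hc hc, hU.1.polar hd1 hc, hU'.1.polar hc' hd1', smul_zero, add_zero]
    rcases hcL with hcL | hcL
    · refine gen b1 b2 hb1' hb2' (h2.polar hbL1 hbL2) ?_ ?_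
      · rintro t rfl; exact hb01 (hd _ (L1.smul_mem _ hcL) hbL1)
      · rintro t rfl; exact hb02 (hd _ (L1.smul_mem _ hcL) hbL2)
    · refine gen a1 a2 ha1' ha2' (h1.polar haL1 haL2) ?_ ?_
      · rintro t rfl; exact ha01 (hd _ haL1 (L2.smul_mem _ hcL))
      · rintro t rfl; exact ha02 (hd _ haL2 (L2.smul_mem _ hcL))
  have A1 := key2 U1 hU1 ha1
  have A2 := key2 U2 hU2 ha2
  have A3 := key2 U3 hU3 ha3
  rcases A1 with A1 | A1 <;> rcases A2 with A2 | A2 <;> rcases A3 with A3 | A3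
  · exact n12 (adj _ _ hU1 hU2 h12 ⟨a, A1, A2, ha0, Or.inl haL⟩)
  · exact n12 (adj _ _ hU1 hU2 h12 ⟨a, A1, A2, ha0, Or.inl haL⟩)
  · exact n13 (adj _ _ hU1 hU3 h13 ⟨a, A1, A3, ha0, Or.inl haL⟩)
  · exact n23 (adj _ _ hU2 hU3 h23 ⟨b, A2, A3, hb0, Or.inr hbL⟩)
  · exact n23 (adj _ _ hU2 hU3 h23 ⟨a, A2, A3, ha0, Or.inl haL⟩)
  · exact n13 (adj _ _ hU1 hU3 h13 ⟨b, A1, A3, hb0, Or.inr hbL⟩)
  · exact n12 (adj _ _ hU1 hU2 h12 ⟨b, A1, A2, hb0, Or.inr hbL⟩)
  · exact n12 (adj _ _ hU1 hU2 h12 ⟨b, A1, A2, hb0, Or.inr hbL⟩)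

theorem exists_T2 (hQ : (QuadraticMap.polarBilin Q).Nondegenerate) {L1 L2 : Submodule F V} (h1 : TL Q L1) (h2 : TL Q L2) (hne : L1 ≠ L2)
    (hc : Cm Q L1 L2) (hna : ¬ Ad Q L1 L2) (hnd : ¬ ((∀ x ∈ L1, ∀ y ∈ L2, B x y = 0) ∧ ∀ x ∈ L1, x ∈ L2 → x = 0)) :
    ∃ v x y, T2 Q L1 L2 v x y := by
  have hex : ∃ v ∈ L1, v ∈ L2 ∧ v ≠ 0 := by
    rcases (cm_iff hQ h1 h2).1 hc with hp | h
    · by_contra hcon
      push Not at hcon
      exact hnd ⟨hp, hcon⟩
    · exact h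
  obtain ⟨v, hv1, hv2, hv0⟩ := hex
  have hnp : ∃ x ∈ L1, ∃ y ∈ L2, B x y ≠ 0 := by
    by_contra hcon
    push Not at hcon
    exact hna ((ad_iff hQ h1 h2).2 ⟨hne, hcon, v, hv1, hv2, hv0⟩)
  obtain ⟨x, hx, y, hy, hxy⟩ := hnp
  exact ⟨v, x, (B x y)⁻¹ • y, h1, h2, hv1, hv2, hx, L2.smul_mem _ hy, hv0, by
    rw [QuadraticMap.polar_smul_right, smul_eq_mul, inv_mul_cancel₀ hxy]⟩

end

end CfsgLib.AutO27
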