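import Cfsg.Agent.LibAutO27c

set_option autoImplicit false

/-! Frames of hyperbolic pairs; the good pair of lines. -/

namespace CfsgLib.AutO27

open Cfsg.Agent.H22 CfsgLib.SylCen27 Module

variable {F V : Type*} [Field F] [AddCommGroup V] [Module F V] {Q : QuadraticForm F V}

local notation "B" => QuadraticMap.polar Q

/-- `n` orthogonal hyperbolic pairs and a nonsingular vector -/
structure Fr (Q : QuadraticForm F V) {n : ℕ} (e f : Fin n → V) (u : V) : Prop where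
  qe : ∀ i, Q (e i) = 0
  qf : ∀ i, Q (f i) = 0
  ee : ∀ i j, QuadraticMap.polar Q (e i) (e j) = 0
  ff : ∀ i j, QuadraticMap.polar Q (f i) (f j) = 0
  ef : ∀ i, QuadraticMap.polar Q (e i) (f i) = 1
  ef' : ∀ i j, i ≠ j → QuadraticMap.polar Q (e i) (f j) = 0
  ue : ∀ i, QuadraticMap.polar Q u (e i) = 0
  uf : ∀ i, QuadraticMap.polar Q u (f i) = 0
  qu : Q u ≠ 0

variable {n : ℕ} {e f : Fin n → V} {u : V}

theorem Fr.fe' (h : Fr Q e f u) (i j : Fin n) (hij : i ≠ j) : B (f i) (e j) = 0 := by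
  rw [bsymm]; exact h.ef' j i hij.symm

theorem Fr.fe (h : Fr Q e f u) (i : Fin n) : B (f i) (e i) = 1 := by
  rw [bsymm]; exact h.ef i

theorem Fr.hp (h : Fr Q e f u) (i : Fin n) : HP Q (e i) (f i) := ⟨h.qe i, h.qf i, h.ef i⟩

theorem Fr.hs (h : Fr Q e f u) (i j : Fin n) (hij : i ≠ j) : HS Q (e i) (f i) (e j) (f j) u where
  h1 := h.hp i
  h2 := h.hp j
  ee' := h.ee i j
  ef' := h.ef' i j hij
  fe' := h.fe' i j hij
  ff' := h.ff i j
  ue := h.ue i
  uf := h.uf i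
  ue' := h.ue j
  uf' := h.uf j
  qu := h.qu

theorem Fr.comp {k : ℕ} (h : Fr Q e f u) (s : Fin k → Fin n) (hs : Function.Injective s) :
    Fr Q (fun i => e (s i)) (fun i => f (s i)) u where
  qe i := h.qe _
  qf i := h.qf _
  ee i j := h.ee _ _
  ff i j := h.ff _ _
  ef i := h.ef _
  ef' i j hij := h.ef' _ _ (fun hh => hij (hs hh))
  ue i := h.ue _
  uf i := h.uf _
  qu := h.qu

theorem ne_of_B {a b t : V} (h1 : B t a = 0) (h2 : B t b ≠ 0) : ∀ c : F, b ≠ c • a := by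
  rintro c rfl
  apply h2
  rw [QuadraticMap.polar_smul_right, h1, smul_zero]

/-- the pair of lines `⟨e₀,e₁⟩`, `⟨e₀,f₁⟩` -/
theorem Fr.t2 (h : Fr Q e f u) (i j : Fin n) (hij : i ≠ j) :
    T2 Q (Submodule.span F {e i, e j}) (Submodule.span F {e i, f j}) (e i) (e j) (f j) where
  h1 := TL.span (h.qe i) (h.qe j) (h.ee i j) (h.hp i).ne (ne_of_B (t := f j) (h.fe' j i hij.symm) (by rw [h.fe j]; exact one_ne_zero))
  h2 := TL.span (h.qe i) (h.qf j) (h.ef' i j hij) (h.hp i).ne (ne_of_B (t := e j) (h.ee j i) (by rw [h.ef j]; exact one_ne_zero))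
  v1 := Submodule.subset_span (by simp)
  v2 := Submodule.subset_span (by simp)
  x1 := Submodule.subset_span (by simp)
  y2 := Submodule.subset_span (by simp)
  v0 := (h.hp i).ne
  xy := h.ef j

section
variable [FiniteDimensional F V]

/-- adjacency of two lines through `v` -/
theorem ad_span (hQ : (QuadraticMap.polarBilin Q).Nondegenerate) {v w w' : V} (hv0 : v ≠ 0) (hv : Q v = 0) (hw : Q w = 0)
    (hw' : Q w' = 0) (hvw : B v w = 0) (hvw' : B v w' = 0) (hi : ∀ c : F, w ≠ c • v) (hi' : ∀ c : F, w' ≠ c • v)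
    (hww : B w w' = 0) (hne : ∃ t, B t v = 0 ∧ B t w = 0 ∧ B t w' ≠ 0) :
    Ad Q (Submodule.span F {v, w}) (Submodule.span F {v, w'}) := by
  have h1 := TL.span hv hw hvw hv0 hi
  have h2 := TL.span hv hw' hvw' hv0 hi'
  refine (ad_iff hQ h1 h2).2 ⟨?_, ?_, v, Submodule.subset_span (by simp), Submodule.subset_span (by simp), hv0⟩
  · intro heq
    obtain ⟨t, ht1, ht2, ht3⟩ := hne
    have h3 : w' ∈ Submodule.span F {v, w} := by rw [heq]; exact Submodule.subset_span (by simp)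
    obtain ⟨a, b, rfl⟩ := mem_span2 h3
    apply ht3
    rw [QuadraticMap.polar_add_right, QuadraticMap.polar_smul_right, QuadraticMap.polar_smul_right, ht1, ht2]; simp
  · intro x hx y hy
    obtain ⟨a, b, rfl⟩ := mem_span2 hx
    obtain ⟨c, d, rfl⟩ := mem_span2 hy
    simp only [QuadraticMap.polar_add_left, QuadraticMap.polar_add_right, QuadraticMap.polar_smul_left, QuadraticMap.polar_smul_right,
      bself hv, hvw', bsymm w v, hvw, hww, smul_zero, add_zero]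

theorem nad_span (hQ : (QuadraticMap.polarBilin Q).Nondegenerate) {v w w' : V} (hv0 : v ≠ 0) (hv : Q v = 0) (hw : Q w = 0)
    (hw' : Q w' = 0) (hvw : B v w = 0) (hvw' : B v w' = 0) (hi : ∀ c : F, w ≠ c • v) (hi' : ∀ c : F, w' ≠ c • v)
    (hww : B w w' ≠ 0) : Submodule.span F {v, w} ≠ Submodule.span F {v, w'} ∧
      ¬ Ad Q (Submodule.span F {v, w}) (Submodule.span F {v, w'}) := by
  have h1 := TL.span hv hw hvw hv0 hi
  have h2 := TL.span hv hw' hvw' hv0 hi'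
  have e1 : w ∈ Submodule.span F {v, w} := Submodule.subset_span (by simp)
  have e2 : w' ∈ Submodule.span F {v, w'} := Submodule.subset_span (by simp)
  constructor
  · intro heq
    rw [← heq] at e2
    exact hww (h1.polar e1 e2)
  · intro had
    exact hww (((ad_iff hQ h1 h2).1 had).2.1 w e1 w' e2)

theorem Fr.pp (h : Fr Q e f u) (hQ : (QuadraticMap.polarBilin Q).Nondegenerate) (i j k l : Fin n) (hij : i ≠ j) (hik : i ≠ k)
    (hil : i ≠ l) (hjk : j ≠ k) (hjl : j ≠ l) (hkl : k ≠ l) :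
    PP Q (Submodule.span F {e i, e j}) (Submodule.span F {e i, f j}) := by
  have hT := h.t2 i j hij
  obtain ⟨w, hw⟩ : ∃ w, w = e l + u - Q u • f l := ⟨_, rfl⟩
  have hqw : Q w = 0 := by
    rw [hw, qsub, qadd, qsmul, h.qe, h.qf, QuadraticMap.polar_smul_right, QuadraticMap.polar_add_left, h.ef, h.uf, bsymm, h.ue]
    simp
  have hwt : ∀ t, B t (e l) = 0 → B t u = 0 → B t (f l) = 0 → B t w = 0 := by
    intro t h1 h2 h3
    rw [hw, QuadraticMap.polar_sub_right, QuadraticMap.polar_add_right, QuadraticMap.polar_smul_right, h1, h2, h3]; simp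
  have hv0 := (h.hp i).ne
  have eu : ∀ i, B (e i) u = 0 := fun i => by rw [bsymm]; exact h.ue i
  have fu : ∀ i, B (f i) u = 0 := fun i => by rw [bsymm]; exact h.uf i
  have hwe : B (e l) w = - Q u := by
    rw [hw, QuadraticMap.polar_sub_right, QuadraticMap.polar_add_right, QuadraticMap.polar_smul_right, h.ee, h.ef, eu, smul_eq_mul]; ring
  have hwf : B (f l) w = 1 := by
    rw [hw, QuadraticMap.polar_sub_right, QuadraticMap.polar_add_right, QuadraticMap.polar_smul_right, h.ff, h.fe, fu, smul_eq_mul]; ring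
  -- nonproportionality with `e i`
  have iek : ∀ c : F, e k ≠ c • e i := ne_of_B (t := f k) (h.fe' _ _ hik.symm) (by rw [h.fe]; exact one_ne_zero)
  have iel : ∀ c : F, e l ≠ c • e i := ne_of_B (t := f l) (h.fe' _ _ hil.symm) (by rw [h.fe]; exact one_ne_zero)
  have ifl : ∀ c : F, f l ≠ c • e i := ne_of_B (t := e l) (h.ee _ _) (by rw [h.ef]; exact one_ne_zero)
  have iw : ∀ c : F, w ≠ c • e i := ne_of_B (t := f l) (h.fe' _ _ hil.symm) (by rw [hwf]; exact one_ne_zero)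
  have iej : ∀ c : F, e j ≠ c • e i := hT.indx
  have ifj : ∀ c : F, f j ≠ c • e i := hT.indy
  have eiw : B (e i) w = 0 := hwt _ (h.ee _ _) (eu _) (h.ef' _ _ hil)
  have nb : ∀ z, Q z = 0 → B (e i) z = 0 → (∀ c : F, z ≠ c • e i) → B z (e j) = 0 → B z (f j) = 0 →
      Nb Q (Submodule.span F {e i, e j}) (Submodule.span F {e i, f j}) (Submodule.span F {e i, z}) := by
    intro z hz1 hz2 hz3 hz4 hz5
    refine ⟨TL.span (h.qe i) hz1 hz2 hv0 hz3, ?_, ?_⟩
    · exact ad_span hQ hv0 (h.qe i) hz1 (h.qe j) hz2 (h.ee _ _) hz3 iej hz4 ⟨f j, h.fe' _ _ hij.symm, by rw [bsymm]; exact hz5,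
        by rw [h.fe]; exact one_ne_zero⟩
    · exact ad_span hQ hv0 (h.qe i) hz1 (h.qf j) hz2 (h.ef' _ _ hij) hz3 ifj hz5 ⟨e j, h.ee _ _, by rw [bsymm]; exact hz4,
        by rw [h.ef]; exact one_ne_zero⟩
  have nw : Nb Q (Submodule.span F {e i, e j}) (Submodule.span F {e i, f j}) (Submodule.span F {e i, w}) :=
    nb w hqw eiw iw (by rw [bsymm]; exact hwt _ (h.ee _ _) (eu _) (h.ef' _ _ hjl)) (by rw [bsymm]; exact hwt _ (h.fe' _ _ hjl) (fu _) (h.ff _ _))
  have n1 := nad_span hQ hv0 (h.qe i) (h.qe l) (h.qf l) (h.ee _ _) (h.ef' _ _ hil) iel ifl (by rw [h.ef]; exact one_ne_zero)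
  have n2 := nad_span hQ hv0 (h.qe i) (h.qe l) hqw (h.ee _ _) eiw iel iw (by rw [hwe]; exact neg_ne_zero.2 h.qu)
  have n3 := nad_span hQ hv0 (h.qe i) (h.qf l) hqw (h.ef' _ _ hil) eiw ifl iw (by rw [hwf]; exact one_ne_zero)
  refine ⟨Submodule.span F {e i, e k}, Submodule.span F {e i, e l}, Submodule.span F {e i, f l}, Submodule.span F {e i, w},
    nb _ (h.qe k) (h.ee _ _) iek (h.ee _ _) (h.ef' _ _ hjk.symm),
    ⟨nb _ (h.qe l) (h.ee _ _) iel (h.ee _ _) (h.ef' _ _ hjl.symm), nb _ (h.qf l) (h.ef' _ _ hil) ifl (h.fe' _ _ hjl.symm) (h.ff _ _), nw⟩,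
    ⟨?_, ?_, ?_⟩, ⟨n1.1, n2.1, n3.1⟩, ⟨n1.2, n2.2, n3.2⟩⟩
  · exact ad_span hQ hv0 (h.qe i) (h.qe l) (h.qe k) (h.ee _ _) (h.ee _ _) iel iek (h.ee _ _)
      ⟨f k, h.fe' _ _ hik.symm, h.fe' _ _ hkl, by rw [h.fe]; exact one_ne_zero⟩
  · exact ad_span hQ hv0 (h.qe i) (h.qf l) (h.qe k) (h.ef' _ _ hil) (h.ee _ _) ifl iek (h.fe' _ _ hkl.symm)
      ⟨f k, h.fe' _ _ hik.symm, h.ff _ _, by rw [h.fe]; exact one_ne_zero⟩
  · exact ad_span hQ hv0 (h.qe i) hqw (h.qe k) eiw (h.ee _ _) iw iek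
      (by rw [bsymm]; exact hwt _ (h.ee _ _) (eu _) (h.ef' _ _ hkl))
      ⟨f k, h.fe' _ _ hik.symm, hwt _ (h.fe' _ _ hkl) (fu _) (h.ff _ _), by rw [h.fe]; exact one_ne_zero⟩

theorem T2.not_ad (hQ : (QuadraticMap.polarBilin Q).Nondegenerate) {L1 L2 : Submodule F V} {v x y : V} (h : T2 Q L1 L2 v x y) :
    ¬ Ad Q L1 L2 := by
  intro had
  have := ((ad_iff hQ h.h1 h.h2).1 had).2.1 _ h.x1 _ h.y2
  rw [h.xy] at this
  exact one_ne_zero this

theorem T2.cm (hQ : (QuadraticMap.polarBilin Q).Nondegenerate) {L1 L2 : Submodule F V} {v x y : V} (h : T2 Q L1 L2 v x y) :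
    Cm Q L1 L2 := cm_of_common hQ h.h1 h.h2 h.v1 h.v2 h.v0

theorem T2.ne {L1 L2 : Submodule F V} {v x y : V} (h : T2 Q L1 L2 v x y) : L1 ≠ L2 := by
  rintro rfl
  have := h.h1.polar h.x1 h.y2
  rw [h.xy] at this
  exact one_ne_zero this

end

/-- The standing hypothesis: three hyperbolic pairs and a nonsingular vector, and either four such pairs or no two disjoint
perpendicular totally singular lines. -/
structure Good (Q : QuadraticForm F V) (e f : Fin 3 → V) (u : V) : Prop where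
  nd : (QuadraticMap.polarBilin Q).Nondegenerate
  fr : Fr Q e f u
  h5 : 5 ≤ finrank F V
  alt : (∃ (e' f' : Fin 4 → V) (u' : V), Fr Q e' f' u') ∨
    (∀ L1 L2 : Submodule F V, TL Q L1 → TL Q L2 → (∀ x ∈ L1, ∀ y ∈ L2, QuadraticMap.polar Q x y = 0) → ∃ x ∈ L1, x ∈ L2 ∧ x ≠ 0)

end CfsgLib.AutO27
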