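import Cfsg.Agent.LibAutO27d

set_option autoImplicit false

/-! Sylow centres of the Eichler group. -/

namespace CfsgLib.AutO27

open Cfsg.Agent.H22 CfsgLib.SylCen27 Module

variable {F V : Type*} [Field F] [AddCommGroup V] [Module F V] {Q : QuadraticForm F V}

local notation "B" => QuadraticMap.polar Q

theorem E_inj {v : V} (hQ : (QuadraticMap.polarBilin Q).Nondegenerate) (hv0 : v ≠ 0) (hv : Q v = 0) {w w' : V} (hw : B v w = 0)
    (hw' : B v w' = 0) (h : E Q v w = E Q v w') : ∃ c : F, w' = w + c • v := by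
  obtain ⟨f, hf⟩ := exists_HP hQ hv0 hv
  have h1 : (E Q v w).1.1 f = (E Q v w').1.1 f := by rw [h]
  rw [E_apply hv hw, E_apply hv hw', hf.2.2] at h1
  refine ⟨B w' f + Q w' - B w f - Q w, ?_⟩
  have h3 : (f + (1 : F) • w' - B w' f • v - (Q w' * 1) • v) - (f + (1 : F) • w - B w f • v - (Q w * 1) • v) = 0 := by
    rw [h1, sub_self]
  have h4 : w' = w + (B w' f + Q w' - B w f - Q w) • v +
      ((f + (1 : F) • w' - B w' f • v - (Q w' * 1) • v) - (f + (1 : F) • w - B w f • v - (Q w * 1) • v)) := by module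
  rw [h3, add_zero] at h4
  exact h4

/-- the root group of a vector -/
def QV (Q : QuadraticForm F V) (v : V) (hv : Q v = 0) : Subgroup (EG Q) where
  carrier := {g | ∃ w, QuadraticMap.polar Q v w = 0 ∧ g = E Q v w}
  mul_mem' := by
    rintro _ _ ⟨w, hw, rfl⟩ ⟨w', hw', rfl⟩
    exact ⟨w + w', by rw [QuadraticMap.polar_add_right, hw, hw', add_zero], E_mul hv hw hw'⟩
  one_mem' := ⟨0, by simp, E_zero.symm⟩
  inv_mem' := by
    rintro _ ⟨w, hw, rfl⟩
    exact ⟨-w, by rw [QuadraticMap.polar_neg_right, hw, neg_zero], E_inv hv hw⟩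

theorem E_pow {v w : V} (hv : Q v = 0) (hw : B v w = 0) (n : ℕ) : E Q v w ^ n = E Q v (n • w) := by
  induction n with
  | zero => rw [pow_zero, zero_smul, E_zero]
  | succ n ih =>
    rw [pow_succ, ih, E_mul hv (by rw [← Nat.cast_smul_eq_nsmul F, QuadraticMap.polar_smul_right, hw, smul_zero]) hw, succ_nsmul]

theorem E_pow_p {p : ℕ} [CharP F p] {v w : V} (hv : Q v = 0) (hw : B v w = 0) : E Q v w ^ p = 1 := by
  rw [E_pow hv hw, ← Nat.cast_smul_eq_nsmul F, CharP.cast_eq_zero, zero_smul, E_zero]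

/-- the unipotent group of a flag -/
def UF (Q : QuadraticForm F V) (v u : V) : Subgroup (EG Q) where
  carrier := {g | g.1.1 v = v ∧ (∃ c : F, g.1.1 u = u + c • v) ∧
    ∀ x, QuadraticMap.polar Q v x = 0 → QuadraticMap.polar Q u x = 0 → ∃ a b : F, g.1.1 x = x + a • v + b • u}
  mul_mem' := by
    rintro g h ⟨g1, ⟨c, g2⟩, g3⟩ ⟨h1, ⟨d, h2⟩, h3⟩
    refine ⟨by rw [mul_app, h1, g1], ⟨c + d, by rw [mul_app, h2, map_add, map_smul, g1, g2]; module⟩, fun x hx hx' => ?_⟩
    obtain ⟨a, b, hab⟩ := h3 x hx hx'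
    obtain ⟨a', b', hab'⟩ := g3 x hx hx'
    refine ⟨a' + a + b * c, b' + b, ?_⟩
    rw [mul_app, hab, map_add, map_add, map_smul, map_smul, hab', g1, g2]
    module
  one_mem' := ⟨one_app v, ⟨0, by rw [one_app, zero_smul, add_zero]⟩, fun x _ _ => ⟨0, 0, by rw [one_app]; simp⟩⟩
  inv_mem' := by
    rintro g ⟨g1, ⟨c, g2⟩, g3⟩
    have i1 : (g⁻¹).1.1 v = v := by
      have := inv_app g v
      rwa [g1] at this
    have i2 : (g⁻¹).1.1 u = u + (-c) • v := by
      have := inv_app g u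
      rw [g2, map_add, map_smul, i1] at this
      rw [neg_smul, ← sub_eq_add_neg, eq_sub_iff_add_eq, this]
    refine ⟨i1, ⟨-c, i2⟩, fun x hx hx' => ?_⟩
    obtain ⟨a, b, hab⟩ := g3 x hx hx'
    refine ⟨-a + b * c, -b, ?_⟩
    have := inv_app g x
    rw [hab, map_add, map_add, map_smul, map_smul, i1, i2] at this
    have h4 : (g⁻¹).1.1 x = x - a • v - b • (u + -c • v) := by
      rw [eq_sub_iff_add_eq, eq_sub_iff_add_eq, add_right_comm, this]
    rw [h4]
    module

variable {p : ℕ} [Fact p.Prime] [CharP F p]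

theorem UF_pgroup {v u : V} : IsPGroup p (UF Q v u) := by
  rintro ⟨g, g1, ⟨c, g2⟩, g3⟩
  refine ⟨3, Subtype.ext ?_⟩
  show g ^ (p ^ 3) = 1
  apply Subtype.ext
  apply Subtype.ext
  show g.1.1 ^ (p ^ 3) = 1
  have i1 : (g⁻¹).1.1 v = v := by
    have := inv_app g v
    rwa [g1] at this
  have i2 : (g⁻¹).1.1 u = u + (-c) • v := by
    have := inv_app g u
    rw [g2, map_add, map_smul, i1] at this
    rw [neg_smul, ← sub_eq_add_neg, eq_sub_iff_add_eq, this]
  have adj : ∀ y x, B y (g.1.1 x) = B ((g⁻¹).1.1 y) x := by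
    intro y x
    rw [← g_polar g ((g⁻¹).1.1 y) x, app_inv]
  have s1 : ∀ x, B v (g.1.1 x - x) = 0 := by
    intro x
    rw [QuadraticMap.polar_sub_right, adj, i1, sub_self]
  have s2 : ∀ x, B v x = 0 → B u (g.1.1 x - x) = 0 := by
    intro x hx
    rw [QuadraticMap.polar_sub_right, adj, i2, QuadraticMap.polar_add_left, QuadraticMap.polar_smul_left, hx]; simp
  refine equiv_pow_of_unip (p := p) _ 5 3 ?_ (fun x => g.1.1 x - x) (fun _ => rfl) (fun x => ?_)
  · have h2 := (Fact.out : p.Prime).two_le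
    calc 5 ≤ 2 ^ 3 := by norm_num
      _ ≤ p ^ 3 := Nat.pow_le_pow_left h2 3
  · have step : ∀ (D : V → V), D = (fun x => g.1.1 x - x) → D^[5] x = D (D (D (D (D x)))) := fun D _ => rfl
    rw [step _ rfl]
    show g.1.1 _ - _ = 0
    obtain ⟨x1, hx1⟩ : ∃ x1, x1 = g.1.1 x - x := ⟨_, rfl⟩
    rw [← hx1]
    have v1 : B v x1 = 0 := by rw [hx1]; exact s1 x
    obtain ⟨x2, hx2⟩ : ∃ x2, x2 = g.1.1 x1 - x1 := ⟨_, rfl⟩
    rw [← hx2]
    have v2 : B v x2 = 0 := by rw [hx2]; exact s1 x1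
    have u2 : B u x2 = 0 := by rw [hx2]; exact s2 x1 v1
    obtain ⟨a, b, hab⟩ := g3 x2 v2 u2
    have e1 : g.1.1 x2 - x2 = a • v + b • u := by rw [hab]; abel
    rw [e1]
    have e2 : g.1.1 (a • v + b • u) - (a • v + b • u) = (b * c) • v := by
      rw [map_add, map_smul, map_smul, g1, g2]; module
    rw [e2, map_smul, g1, sub_self]

theorem E_mem_UF {v u w : V} (hv : Q v = 0) (hvu : B v u = 0) (hw : B v w = 0) : E Q v w ∈ UF Q v u := by
  refine ⟨?_, ⟨-(B w u), ?_⟩, fun x hx hx' => ⟨-(B w x), 0, ?_⟩⟩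
  · rw [E_apply hv hw, bself hv, bsymm w v, hw]; simp
  · rw [E_apply hv hw, hvu]
    module
  · rw [E_apply hv hw, hx]
    module

theorem E_mem_UF' {v u w : V} (hu : Q u = 0) (hvu : B v u = 0) (hvw : B v w = 0) (huw : B u w = 0) : E Q u w ∈ UF Q v u := by
  refine ⟨?_, ⟨0, ?_⟩, fun x hx hx' => ⟨0, -(B w x), ?_⟩⟩
  · rw [E_apply hu huw, bsymm u v, hvu, bsymm w v, hvw]; simp
  · rw [E_apply hu huw, bself hu, bsymm w u, huw]; simp
  · rw [E_apply hu huw, hx']
    module

section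
variable [FiniteDimensional F V]

theorem exists_perp_not_mem (hQ : (QuadraticMap.polarBilin Q).Nondegenerate) (h5 : 5 ≤ finrank F V) {L : Submodule F V} (h : TL Q L) :
    ∃ w, (∀ y ∈ L, B y w = 0) ∧ w ∉ L := by
  by_contra hcon
  push Not at hcon
  have hR : (QuadraticMap.polarBilin Q).IsRefl := polar_isSymm.isRefl
  have h1 := LinearMap.BilinForm.finrank_orthogonal hQ L
  have h2 : LinearMap.BilinForm.orthogonal (QuadraticMap.polarBilin Q) L ≤ L := by
    intro x hx
    rw [LinearMap.BilinForm.mem_orthogonal_iff] at hx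
    exact hcon x fun y hy => hx y hy
  have h3 := Submodule.finrank_mono h2
  rw [h1, h.fr] at h3
  omega

/-- the key claim on vectors fixed modulo `v` -/
theorem mem_of_fixed_mod (hQ : (QuadraticMap.polarBilin Q).Nondegenerate) (h5 : 5 ≤ finrank F V) {L : Submodule F V} (h : TL Q L)
    {v u : V} (hv : v ∈ L) (hu : u ∈ L) (hv0 : v ≠ 0) (hind : ∀ c : F, u ≠ c • v) {y : V} (hy : B v y = 0)
    (hfix : ∀ w, (∀ z ∈ L, B z w = 0) → ∃ c : F, (E Q u w).1.1 y = y + c • v) : y ∈ L := by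
  have hqu := h.sing _ hu
  have hcomp : ∀ w, (∀ z ∈ L, B z w = 0) → ∃ c : F, B u y • w - (B w y + Q w * B u y) • u = c • v := by
    intro w hw
    obtain ⟨c, hc⟩ := hfix w hw
    rw [E_apply hqu (hw u hu)] at hc
    refine ⟨c, ?_⟩
    have : B u y • w - (B w y + Q w * B u y) • u = (y + B u y • w - B w y • u - (Q w * B u y) • u) - y := by module
    rw [this, hc]; abel
  have huy : B u y = 0 := by
    by_contra hne
    obtain ⟨w, hw, hwL⟩ := exists_perp_not_mem hQ h5 h
    apply hwL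
    obtain ⟨c, hc⟩ := hcomp w hw
    rw [← L.smul_mem_iff hne, sub_eq_iff_eq_add.1 hc]
    exact L.add_mem (L.smul_mem _ hv) (L.smul_mem _ hu)
  by_contra hyL
  obtain ⟨w, hw, hyw⟩ := perp_perp hQ hyL
  obtain ⟨c, hc⟩ := hcomp w hw
  rw [huy, mul_zero, add_zero, zero_smul, zero_sub] at hc
  rw [bsymm] at hyw
  apply hind (-(B w y)⁻¹ * c)
  rw [mul_smul, ← hc, smul_neg, neg_smul, neg_neg, smul_smul, inv_mul_cancel₀ hyw, one_smul]

theorem finite_EG [Finite F] : Finite (EG Q) := by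
  haveI : Finite V := Module.finite_of_finite F
  haveI : Finite (V ≃ₗ[F] V) := DFunLike.finite _
  infer_instance

/-- **Sylow centres**: for every totally singular line there is a Sylow subgroup whose central part is the root subgroup. -/
theorem exists_sylow [Finite F] (hQ : (QuadraticMap.polarBilin Q).Nondegenerate) (h5 : 5 ≤ finrank F V) {L : Submodule F V} (h : TL Q L) :
    ∃ P : Sylow p (EG Q), cen (P : Subgroup (EG Q)) = (R Q L : Set (EG Q)) := by
  haveI : Finite V := Module.finite_of_finite F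
  obtain ⟨v, hv, hv0⟩ := h.exists_ne
  obtain ⟨u, hu, hind⟩ := h.exists_other hv0
  have hqv := h.sing _ hv
  have hqu := h.sing _ hu
  have hvu := h.polar hv hu
  obtain ⟨P, hP⟩ := (UF_pgroup (p := p) (Q := Q) (v := v) (u := u)).exists_le_sylow
  have hPE : ∀ w, B v w = 0 → E Q v w ∈ P := fun w hw => hP (E_mem_UF hqv hvu hw)
  have hPE' : ∀ w, (∀ z ∈ L, B z w = 0) → E Q u w ∈ P := fun w hw => hP (E_mem_UF' hqu hvu (hw v hv) (hw u hu))
  let ρ : EG Q →* (V ≃ₗ[F] V) := (OGrp Q).subtype.comp (EG Q).subtype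
  have hρ : ∀ (g : EG Q) x, ρ g x = g.1.1 x := fun _ _ => rfl
  -- `P` fixes `v`
  have hPv : ∀ g ∈ P, g.1.1 v = v := by
    obtain ⟨x, -, hx0, hx⟩ := exists_fixed_mod (P : Subgroup (EG Q)) P.2 ρ (⊥ : Submodule F V) ⊤ (by
      intro hle
      exact hv0 ((Submodule.mem_bot F).1 (hle (Submodule.mem_top (x := v))))) (fun _ _ _ _ => trivial) (fun g _ x hx => by
        rw [Submodule.mem_bot] at hx ⊢
        rw [hx, map_zero])
    have hx' : ∀ g ∈ P, g.1.1 x = x := by
      intro g hg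
      have := hx g hg
      rwa [Submodule.mem_bot, hρ, sub_eq_zero] at this
    obtain ⟨c, hc⟩ := fix_root hQ v hqv hv0 (by
      refine ⟨u, hvu, ?_⟩
      rw [Submodule.mem_span_singleton]
      rintro ⟨c, hc⟩
      exact hind c hc.symm) x (by
      intro w hw
      have := hx' _ (hPE w hw)
      rwa [E_def hqv hw] at this)
    have hc0 : c ≠ 0 := by
      rintro rfl
      rw [zero_smul] at hc
      exact hx0 (by rw [hc]; exact Submodule.zero_mem _)
    intro g hg
    have h1 := hx' g hg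
    rw [hc, map_smul] at h1
    exact smul_right_injective V hc0 h1
  have hPinv : ∀ g ∈ P, (g⁻¹).1.1 v = v := fun g hg => hPv _ (P.inv_mem hg)
  -- `P` stabilizes `L`
  have hPu : ∀ g ∈ P, ∃ c : F, g.1.1 u = u + c • v := by
    obtain ⟨y, hy, hy0, hfix⟩ := exists_fixed_mod (P : Subgroup (EG Q)) P.2 ρ (Submodule.span F {v})
      (LinearMap.ker (QuadraticMap.polarBilin Q v)) (by
      intro hle
      have h1 := hle (show u ∈ LinearMap.ker (QuadraticMap.polarBilin Q v) from hvu)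
      rw [Submodule.mem_span_singleton] at h1
      obtain ⟨c, hc⟩ := h1
      exact hind c hc.symm) (fun g hg x hx => by
        show B v (g.1.1 x) = 0
        have : B v (g.1.1 x) = B ((g⁻¹).1.1 v) x := by rw [← g_polar g ((g⁻¹).1.1 v) x, app_inv]
        rw [this, hPinv g hg]
        exact hx) (fun g hg x hx => by
        rw [Submodule.mem_span_singleton] at hx ⊢
        obtain ⟨c, rfl⟩ := hx
        exact ⟨c, by rw [hρ, map_smul, hPv g hg]⟩)
    have hfix' : ∀ g ∈ P, ∃ c : F, g.1.1 y = y + c • v := by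
      intro g hg
      obtain ⟨c, hc⟩ := Submodule.mem_span_singleton.1 (hfix g hg)
      exact ⟨c, by rw [hc, hρ]; abel⟩
    have hyL : y ∈ L := mem_of_fixed_mod hQ h5 h hv hu hv0 hind hy fun w hw => hfix' _ (hPE' w hw)
    rw [h.eq_span hv hu hv0 hind] at hyL
    obtain ⟨a, b, rfl⟩ := mem_span2 hyL
    have hb : b ≠ 0 := by
      rintro rfl
      apply hy0
      rw [zero_smul, add_zero]
      exact Submodule.smul_mem _ _ (Submodule.mem_span_singleton_self v)
    intro g hg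
    obtain ⟨c, hc⟩ := hfix' g hg
    rw [map_add, map_smul, map_smul, hPv g hg, add_assoc, add_right_inj] at hc
    refine ⟨b⁻¹ * c, ?_⟩
    apply smul_right_injective V hb
    show b • g.1.1 u = b • (u + (b⁻¹ * c) • v)
    rw [hc, smul_add, smul_smul, mul_inv_cancel_left₀ hb]
  refine ⟨P, ?_⟩
  ext z
  constructor
  · rintro ⟨hz, hc⟩
    obtain ⟨y, hy, rfl⟩ := eq_E_of hQ hv0 hqv z (hPv z hz) (by
      intro w hw
      have h1 := hc _ (hPE w hw)
      have h2 : E Q v (z.1.1 w) = E Q v w := by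
        have h3 := E_conj z v w
        rw [hPv z hz, ← h1, mul_inv_cancel_right] at h3
        exact h3.symm
      obtain ⟨c, hcc⟩ := E_inj hQ hv0 hqv hw (by
        have : B v (z.1.1 w) = B (z.1.1 v) (z.1.1 w) := by rw [hPv z hz]
        rw [this, g_polar, hw]) h2.symm
      exact ⟨c, hcc⟩)
    have hyL : y ∈ L := by
      refine mem_of_fixed_mod hQ h5 h hv hu hv0 hind hy fun w hw => ?_
      have hg := hPE' w hw
      have h1 := hc _ hg
      have h2 : E Q v ((E Q u w).1.1 y) = E Q v y := by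
        have h3 := E_conj (E Q u w) v y
        rw [hPv _ hg, h1, mul_inv_cancel_right] at h3
        exact h3.symm
      exact E_inj hQ hv0 hqv hy (by
        have : B v ((E Q u w).1.1 y) = B ((E Q u w).1.1 v) ((E Q u w).1.1 y) := by rw [hPv _ hg]
        rw [this, g_polar, hy]) h2.symm
    exact E_mem_R h hv hyL
  · intro hz
    obtain ⟨b, rfl⟩ := (R_mem_iff hQ h hv hu hv0 hind z).1 hz
    have hvb : B v (b • u) = 0 := by rw [QuadraticMap.polar_smul_right, hvu, smul_zero]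
    refine ⟨hPE _ hvb, fun g hg => ?_⟩
    obtain ⟨c, hc⟩ := hPu g hg
    have h3 := E_conj g v (b • u)
    rw [hPv g hg, map_smul, hc, smul_add, smul_smul, E_add_self hqv hvb] at h3
    exact mul_inv_eq_iff_eq_mul.1 h3

theorem cen_sylow [Finite F] (hQ : (QuadraticMap.polarBilin Q).Nondegenerate) (h5 : 5 ≤ finrank F V) {L0 : Submodule F V} (h0 : TL Q L0)
    (P : Sylow p (EG Q)) : ∃ L, TL Q L ∧ cen (P : Subgroup (EG Q)) = (R Q L : Set (EG Q)) := by
  haveI : Finite V := Module.finite_of_finite F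
  haveI := finite_EG (Q := Q)
  obtain ⟨P0, hP0⟩ := exists_sylow (p := p) hQ h5 h0
  obtain ⟨g, rfl⟩ := MulAction.exists_smul_eq (EG Q) P0 P
  refine ⟨L0.map (g.1.1 : V →ₗ[F] V), ⟨?_, ?_⟩, ?_⟩
  · rw [LinearEquiv.finrank_map_eq]; exact h0.fr
  · rintro _ ⟨x, hx, rfl⟩
    show Q (g.1.1 x) = 0
    rw [g_Q]
    exact h0.sing x hx
  · have h1 : ((g • P0 : Sylow p (EG Q)) : Subgroup (EG Q)) = (P0 : Subgroup (EG Q)).map (MulAut.conj g).toMonoidHom := rfl
    rw [h1, cen_map, hP0]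
    ext z
    constructor
    · rintro ⟨y, hy, rfl⟩ x
      refine ⟨y.1.1 ((g⁻¹).1.1 x) - (g⁻¹).1.1 x, hy _, ?_⟩
      show g.1.1 _ = (g * y * g⁻¹).1.1 x - x
      rw [map_sub, mul_app, mul_app, app_inv]
    · intro hz
      refine ⟨g⁻¹ * z * g, ?_, by simp [MulAut.conj_apply]; group⟩
      intro x
      obtain ⟨y, hy, hyx⟩ := hz (g.1.1 x)
      have h2 : (g⁻¹ * z * g).1.1 x - x = y := by
        rw [mul_app, mul_app]
        have h3 : g.1.1 y = z.1.1 (g.1.1 x) - g.1.1 x := hyx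
        have h4 := congrArg (fun t => (g⁻¹).1.1 t) h3
        simp only [map_sub, inv_app] at h4
        exact h4.symm
      rw [h2]
      exact hy

end

end CfsgLib.AutO27
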