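import Cfsg.Agent.LibAutO27e

set_option autoImplicit false

/-! Automorphisms of `EG / Z` act on the totally singular lines and preserve stars. -/

namespace CfsgLib.AutO27

open Cfsg.Agent.H22 CfsgLib.SylCen27 Module

variable {F V : Type*} [Field F] [AddCommGroup V] [Module F V] {Q : QuadraticForm F V}

local notation "B" => QuadraticMap.polar Q

/-- the simple group -/
abbrev PG (Q : QuadraticForm F V) : Type _ := EG Q ⧸ Subgroup.center (EG Q)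

/-- the projection -/
abbrev pi (Q : QuadraticForm F V) : EG Q →* PG Q := QuotientGroup.mk' _

variable {p : ℕ} [Fact p.Prime] [CharP F p] {e f : Fin 3 → V} {u : V}

theorem Good.hs (h : Good Q e f u) : HS Q (e 0) (f 0) (e 1) (f 1) u := h.fr.hs 0 1 (by decide)

theorem Good.hK [FiniteDimensional F V] (h : Good Q e f u) (x : EG Q) (k : ℕ) (hx : x ^ (p ^ k) = 1) (hπ : pi Q x = 1) : x = 1 := by
  have hc : x ∈ Subgroup.center (EG Q) := (QuotientGroup.eq_one_iff x).1 hπ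
  obtain ⟨a, -, ha⟩ := h.hs.center_scalar h.nd x hc
  have hpow : ∀ n : ℕ, ∀ y, (x ^ n).1.1 y = a ^ n • y := by
    intro n
    induction n with
    | zero => intro y; rw [pow_zero, one_app, pow_zero, one_smul]
    | succ n ih => intro y; rw [pow_succ, mul_app, ha, map_smul, ih, smul_smul, pow_succ, mul_comm]
  have h1 := hpow (p ^ k) u
  rw [hx, one_app] at h1
  have hu0 : u ≠ 0 := ne_zero_of_Q h.fr.qu
  have h2 : a ^ (p ^ k) = 1 := by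
    have h3 : (a ^ (p ^ k) - 1) • u = 0 := by rw [sub_smul, one_smul, ← h1, sub_self]
    exact sub_eq_zero.1 ((smul_eq_zero.1 h3).resolve_right hu0)
  have h3 : a = 1 := by
    have h4 := sub_pow_char_pow (p := p) (n := k) a 1
    rw [h2, one_pow, sub_self] at h4
    exact sub_eq_zero.1 (pow_eq_zero_iff (pow_ne_zero _ (Fact.out : p.Prime).ne_zero) |>.1 h4)
  apply g_ext
  intro y
  rw [ha, h3, one_smul, one_app]

theorem Good.pi_inj [FiniteDimensional F V] (h : Good Q e f u) {a b : EG Q} (k : ℕ) (ha : a ^ (p ^ k) = 1) (hb : b ^ (p ^ k) = 1) (hab : pi Q a = pi Q b) :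
    a = b := by
  have hz : b⁻¹ * a ∈ Subgroup.center (EG Q) := QuotientGroup.eq.1 hab.symm
  have h1 : a = b * (b⁻¹ * a) := by group
  have h2 : Commute b (b⁻¹ * a) := Subgroup.mem_center_iff.1 hz b
  have h3 : (b⁻¹ * a) ^ (p ^ k) = 1 := by
    have h4 := h2.mul_pow (p ^ k)
    rw [← h1, ha, hb, one_mul] at h4
    exact h4.symm
  have h5 := h.hK (p := p) _ k h3 ((QuotientGroup.eq_one_iff _).2 hz)
  rw [h1, h5, mul_one]

section
variable [FiniteDimensional F V]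

theorem R_pow (hQ : (QuadraticMap.polarBilin Q).Nondegenerate) {L : Submodule F V} (hL : TL Q L) {a : EG Q} (ha : a ∈ R Q L) :
    a ^ p = 1 := by
  obtain ⟨v, hv, hv0⟩ := hL.exists_ne
  obtain ⟨u, hu, hind⟩ := hL.exists_other hv0
  obtain ⟨b, rfl⟩ := (R_mem_iff hQ hL hv hu hv0 hind a).1 ha
  exact E_pow_p (hL.sing _ hv) (hL.polar hv (L.smul_mem b hu))

theorem Good.exists_img [Finite F] (h : Good Q e f u) (α : PG Q ≃* PG Q) {L : Submodule F V} (hL : TL Q L) :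
    ∃ L', TL Q L' ∧ α '' (pi Q '' (R Q L : Set (EG Q))) = pi Q '' (R Q L' : Set (EG Q)) := by
  haveI := finite_EG (Q := Q)
  obtain ⟨p, hp⟩ := CharP.exists F
  haveI : Fact p.Prime := ⟨CharP.char_is_prime F p⟩
  obtain ⟨P, hP⟩ := exists_sylow (p := p) h.nd h.h5 hL
  obtain ⟨P', hP'⟩ := sylow_cen (p := p) (pi Q) (pi Q) (QuotientGroup.mk'_surjective _) (QuotientGroup.mk'_surjective _)
    (fun x k hx hπ => h.hK (p := p) x k hx hπ) (fun x k hx hπ => h.hK (p := p) x k hx hπ) α P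
  obtain ⟨L', hL', hc⟩ := cen_sylow (p := p) h.nd h.h5 hL P'
  rw [hP, hc] at hP'
  exact ⟨L', hL', hP'⟩

open Classical in
/-- the action on lines -/
noncomputable def lm (Q : QuadraticForm F V) (α : PG Q ≃* PG Q) (L : Submodule F V) : Submodule F V :=
  if h : ∃ L', TL Q L' ∧ α '' (pi Q '' (R Q L : Set (EG Q))) = pi Q '' (R Q L' : Set (EG Q)) then h.choose else ⊥

theorem Good.lm_spec [Finite F] (h : Good Q e f u) (α : PG Q ≃* PG Q) {L : Submodule F V} (hL : TL Q L) :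
    TL Q (lm Q α L) ∧ α '' (pi Q '' (R Q L : Set (EG Q))) = pi Q '' (R Q (lm Q α L) : Set (EG Q)) := by
  unfold lm
  rw [dif_pos (h.exists_img α hL)]
  exact (h.exists_img α hL).choose_spec

theorem Good.img_inj [Finite F] (h : Good Q e f u) {L L' : Submodule F V} (hL : TL Q L) (hL' : TL Q L')
    (he : pi Q '' (R Q L : Set (EG Q)) = pi Q '' (R Q L' : Set (EG Q))) : L = L' := by
  obtain ⟨p, hp⟩ := CharP.exists F
  haveI : Fact p.Prime := ⟨CharP.char_is_prime F p⟩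
  apply hL.eq_of_le hL'
  apply R_le h.nd hL
  intro a ha
  have h1 : pi Q a ∈ pi Q '' (R Q L' : Set (EG Q)) := by rw [← he]; exact ⟨a, ha, rfl⟩
  obtain ⟨b, hb, hab⟩ := h1
  have h2 := h.pi_inj (p := p) 1 (a := a) (b := b) (by rw [pow_one]; exact R_pow h.nd hL ha)
    (by rw [pow_one]; exact R_pow h.nd hL' hb) hab.symm
  rw [h2]; exact hb

theorem Good.lm_symm [Finite F] (h : Good Q e f u) (α : PG Q ≃* PG Q) {L : Submodule F V} (hL : TL Q L) :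
    lm Q α.symm (lm Q α L) = L := by
  obtain ⟨h1, h2⟩ := h.lm_spec α hL
  obtain ⟨h3, h4⟩ := h.lm_spec α.symm h1
  apply h.img_inj h3 hL
  rw [← h4, ← h2, Set.image_image]
  simp

theorem Good.lm_symm' [Finite F] (h : Good Q e f u) (α : PG Q ≃* PG Q) {L : Submodule F V} (hL : TL Q L) :
    lm Q α (lm Q α.symm L) = L := by
  have := h.lm_symm α.symm hL
  rwa [MulEquiv.symm_symm] at this

theorem Good.lm_mem [Finite F] (h : Good Q e f u) (α : PG Q ≃* PG Q) {L : Submodule F V} (hL : TL Q L) {a' : EG Q} (ha' : a' ∈ R Q (lm Q α L)) :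
    ∃ a ∈ R Q L, α (pi Q a) = pi Q a' := by
  obtain ⟨h1, h2⟩ := h.lm_spec α hL
  have h3 : pi Q a' ∈ α '' (pi Q '' (R Q L : Set (EG Q))) := by rw [h2]; exact ⟨a', ha', rfl⟩
  obtain ⟨_, ⟨a, ha, rfl⟩, h4⟩ := h3
  exact ⟨a, ha, h4⟩

theorem Good.lm_img [Finite F] (h : Good Q e f u) (α : PG Q ≃* PG Q) {L : Submodule F V} (hL : TL Q L) {a : EG Q} (ha : a ∈ R Q L) :
    ∃ a' ∈ R Q (lm Q α L), α (pi Q a) = pi Q a' := by
  obtain ⟨h1, h2⟩ := h.lm_spec α hL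
  have h3 : α (pi Q a) ∈ pi Q '' (R Q (lm Q α L) : Set (EG Q)) := by rw [← h2]; exact ⟨_, ⟨a, ha, rfl⟩, rfl⟩
  obtain ⟨a', ha', h4⟩ := h3
  exact ⟨a', ha', h4.symm⟩

theorem Good.lm_cm [Finite F] (h : Good Q e f u) (α : PG Q ≃* PG Q) {L L' : Submodule F V} (hL : TL Q L) (hL' : TL Q L')
    (hc : Cm Q L L') : Cm Q (lm Q α L) (lm Q α L') := by
  obtain ⟨p, hp⟩ := CharP.exists F
  haveI : Fact p.Prime := ⟨CharP.char_is_prime F p⟩
  intro a' ha' b' hb'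
  obtain ⟨a, ha, hpa⟩ := h.lm_mem α hL ha'
  obtain ⟨b, hb, hpb⟩ := h.lm_mem α hL' hb'
  have h1 : pi Q (a' * b' * a'⁻¹) = pi Q b' := by
    rw [map_mul, map_mul, map_inv, mul_inv_eq_iff_eq_mul, ← hpa, ← hpb, ← map_mul, ← map_mul, hc a ha b hb, map_mul, map_mul]
  have hbp : b' ^ p = 1 := R_pow h.nd (h.lm_spec α hL').1 hb'
  have h2 := h.pi_inj (p := p) 1 (by rw [pow_one, conj_pow, hbp, mul_one, mul_inv_cancel]) (by rw [pow_one]; exact hbp) h1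
  exact mul_inv_eq_iff_eq_mul.1 h2

theorem Good.lm_cm_iff [Finite F] (h : Good Q e f u) (α : PG Q ≃* PG Q) {L L' : Submodule F V} (hL : TL Q L) (hL' : TL Q L') :
    Cm Q (lm Q α L) (lm Q α L') ↔ Cm Q L L' := by
  refine ⟨fun hc => ?_, h.lm_cm α hL hL'⟩
  have := h.lm_cm α.symm (h.lm_spec α hL).1 (h.lm_spec α hL').1 hc
  rwa [h.lm_symm α hL, h.lm_symm α hL'] at this

theorem Good.lm_ne [Finite F] (h : Good Q e f u) (α : PG Q ≃* PG Q) {L L' : Submodule F V} (hL : TL Q L) (hL' : TL Q L')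
    (hne : L ≠ L') : lm Q α L ≠ lm Q α L' := by
  intro heq
  apply hne
  rw [← h.lm_symm α hL, heq, h.lm_symm α hL']

theorem Good.lm_ad [Finite F] (h : Good Q e f u) (α : PG Q ≃* PG Q) {L L' : Submodule F V} (hL : TL Q L) (hL' : TL Q L')
    (hc : Ad Q L L') : Ad Q (lm Q α L) (lm Q α L') := by
  obtain ⟨p, hp⟩ := CharP.exists F
  haveI : Fact p.Prime := ⟨CharP.char_is_prime F p⟩
  obtain ⟨hne, hcm, hr⟩ := hc
  have hcm' := h.lm_cm α hL hL' hcm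
  refine ⟨h.lm_ne α hL hL' hne, hcm', fun a' ha' b' hb' => ?_⟩
  obtain ⟨a, ha, hpa⟩ := h.lm_mem α hL ha'
  obtain ⟨b, hb, hpb⟩ := h.lm_mem α hL' hb'
  obtain ⟨L'', hL'', hab⟩ := hr a ha b hb
  obtain ⟨c, hc, hpc⟩ := h.lm_img α hL'' hab
  have h1 : pi Q (a' * b') = pi Q c := by rw [map_mul, ← hpa, ← hpb, ← map_mul, ← map_mul, hpc]
  have hap : a' ^ p = 1 := R_pow h.nd (h.lm_spec α hL).1 ha'
  have hbp : b' ^ p = 1 := R_pow h.nd (h.lm_spec α hL').1 hb'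
  have hcp : c ^ p = 1 := R_pow h.nd (h.lm_spec α hL'').1 hc
  have h2 := h.pi_inj (p := p) 1 (a := a' * b') (b := c) (by
    rw [pow_one, (show Commute a' b' from hcm' a' ha' b' hb').mul_pow, hap, hbp, mul_one]) (by rw [pow_one]; exact hcp) h1
  exact ⟨_, (h.lm_spec α hL'').1, by rw [h2]; exact hc⟩

theorem Good.lm_ad_iff [Finite F] (h : Good Q e f u) (α : PG Q ≃* PG Q) {L L' : Submodule F V} (hL : TL Q L) (hL' : TL Q L') :
    Ad Q (lm Q α L) (lm Q α L') ↔ Ad Q L L' := by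
  refine ⟨fun hc => ?_, h.lm_ad α hL hL'⟩
  have := h.lm_ad α.symm (h.lm_spec α hL).1 (h.lm_spec α hL').1 hc
  rwa [h.lm_symm α hL, h.lm_symm α hL'] at this

theorem Good.lm_nb [Finite F] (h : Good Q e f u) (α : PG Q ≃* PG Q) {L1 L2 L : Submodule F V} (h1 : TL Q L1) (h2 : TL Q L2)
    (hL : Nb Q L1 L2 L) : Nb Q (lm Q α L1) (lm Q α L2) (lm Q α L) :=
  ⟨(h.lm_spec α hL.1).1, h.lm_ad α hL.1 h1 hL.2.1, h.lm_ad α hL.1 h2 hL.2.2⟩

theorem Good.lm_pp [Finite F] (h : Good Q e f u) (α : PG Q ≃* PG Q) {L1 L2 : Submodule F V} (h1 : TL Q L1) (h2 : TL Q L2)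
    (hP : PP Q L1 L2) : PP Q (lm Q α L1) (lm Q α L2) := by
  obtain ⟨M, U1, U2, U3, hM, ⟨hU1, hU2, hU3⟩, ⟨ha1, ha2, ha3⟩, ⟨h12, h13, h23⟩, ⟨n12, n13, n23⟩⟩ := hP
  refine ⟨lm Q α M, lm Q α U1, lm Q α U2, lm Q α U3, h.lm_nb α h1 h2 hM, ⟨h.lm_nb α h1 h2 hU1, h.lm_nb α h1 h2 hU2, h.lm_nb α h1 h2 hU3⟩,
    ⟨h.lm_ad α hU1.1 hM.1 ha1, h.lm_ad α hU2.1 hM.1 ha2, h.lm_ad α hU3.1 hM.1 ha3⟩,
    ⟨h.lm_ne α hU1.1 hU2.1 h12, h.lm_ne α hU1.1 hU3.1 h13, h.lm_ne α hU2.1 hU3.1 h23⟩, ⟨?_, ?_, ?_⟩⟩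
  · rw [h.lm_ad_iff α hU1.1 hU2.1]; exact n12
  · rw [h.lm_ad_iff α hU1.1 hU3.1]; exact n13
  · rw [h.lm_ad_iff α hU2.1 hU3.1]; exact n23

theorem Good.lm_st [Finite F] (h : Good Q e f u) (α : PG Q ≃* PG Q) {L1 L2 L : Submodule F V} (h1 : TL Q L1) (h2 : TL Q L2)
    (hL : St Q L1 L2 L) : St Q (lm Q α L1) (lm Q α L2) (lm Q α L) := by
  obtain ⟨hT, hc1, hc2, hN⟩ := hL
  refine ⟨(h.lm_spec α hT).1, h.lm_cm α hT h1 hc1, h.lm_cm α hT h2 hc2, ?_⟩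
  intro L' hL'
  obtain ⟨hT', ha1, ha2⟩ := hL'
  have h3 := (h.lm_spec α.symm hT').1
  rw [← h.lm_symm' α hT', h.lm_ad_iff α h3 h1] at ha1
  rw [← h.lm_symm' α hT', h.lm_ad_iff α h3 h2] at ha2
  rw [← h.lm_symm' α hT', h.lm_cm_iff α hT h3]
  exact hN _ ⟨h3, ha1, ha2⟩

theorem Good.exists_T2 [Finite F] (h : Good Q e f u) (α : PG Q ≃* PG Q) :
    ∃ L1 L2 v x y, T2 Q L1 L2 v x y ∧ ∃ v' x' y', T2 Q (lm Q α L1) (lm Q α L2) v' x' y' := by
  have main : ∀ (L1 L2 : Submodule F V) (v x y : V), T2 Q L1 L2 v x y →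
      ¬ ((∀ x ∈ lm Q α L1, ∀ y ∈ lm Q α L2, B x y = 0) ∧ ∀ x ∈ lm Q α L1, x ∈ lm Q α L2 → x = 0) →
      ∃ v' x' y', T2 Q (lm Q α L1) (lm Q α L2) v' x' y' := by
    intro L1 L2 v x y hT hn
    refine CfsgLib.AutO27.exists_T2 h.nd (h.lm_spec α hT.h1).1 (h.lm_spec α hT.h2).1 (h.lm_ne α hT.h1 hT.h2 hT.ne)
      (h.lm_cm α hT.h1 hT.h2 (hT.cm h.nd)) ?_ hn
    rw [h.lm_ad_iff α hT.h1 hT.h2]
    exact hT.not_ad h.nd
  rcases h.alt with ⟨e', f', u', hF⟩ | halt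
  · have hT := hF.t2 0 1 (by decide)
    refine ⟨_, _, _, _, _, hT, main _ _ _ _ _ hT ?_⟩
    rintro ⟨-, hd⟩
    exact not_PP h.nd (h.lm_spec α hT.h1).1 (h.lm_spec α hT.h2).1 hd
      (h.lm_pp α hT.h1 hT.h2 (hF.pp h.nd 0 1 2 3 (by decide) (by decide) (by decide) (by decide) (by decide) (by decide)))
  · have hT := h.fr.t2 0 1 (by decide)
    refine ⟨_, _, _, _, _, hT, main _ _ _ _ _ hT ?_⟩
    rintro ⟨hp, hd⟩
    obtain ⟨x, hx, hx', hx0⟩ := halt _ _ (h.lm_spec α hT.h1).1 (h.lm_spec α hT.h2).1 hp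
    exact hx0 (hd x hx hx')

/-- lines through some point go to the lines through a point -/
theorem Good.exists_star [Finite F] (h : Good Q e f u) (α : PG Q ≃* PG Q) :
    ∃ v v' : V, v ≠ 0 ∧ Q v = 0 ∧ v' ≠ 0 ∧ Q v' = 0 ∧ ∀ L, TL Q L → (v ∈ L ↔ v' ∈ lm Q α L) := by
  obtain ⟨L1, L2, v, x, y, hT, v', x', y', hT'⟩ := h.exists_T2 α
  refine ⟨v, v', hT.v0, hT.qv, hT'.v0, hT'.qv, fun L hL => ⟨fun hv => ?_, fun hv => ?_⟩⟩
  · exact ((star_iff h.nd hT' _).1 (h.lm_st α hT.h1 hT.h2 ((star_iff h.nd hT L).2 ⟨hL, hv⟩))).2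
  · have h1 := (star_iff h.nd hT' _).2 ⟨(h.lm_spec α hL).1, hv⟩
    have h2 := h.lm_st α.symm hT'.h1 hT'.h2 h1
    rw [h.lm_symm α hL, h.lm_symm α hT.h1, h.lm_symm α hT.h2] at h2
    exact ((star_iff h.nd hT L).1 h2).2

end

end CfsgLib.AutO27
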