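import Cfsg.Agent.LibAutO27f

set_option autoImplicit false

/-! Automorphisms permute the groups `QV`; normalization with respect to a hyperbolic pair. -/

namespace CfsgLib.AutO27

open Cfsg.Agent.H22 CfsgLib.SylCen27 Module

variable {F V : Type*} [Field F] [AddCommGroup V] [Module F V] {Q : QuadraticForm F V}

local notation "B" => QuadraticMap.polar Q

variable {e f : Fin 3 → V} {u : V}

section
variable [FiniteDimensional F V]

theorem E_sing_mem {v z : V} (hv0 : v ≠ 0) (hv : Q v = 0) (hz : Q z = 0) (hvz : B v z = 0) (S : Subgroup (EG Q))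
    (hS : ∀ L, TL Q L → v ∈ L → R Q L ≤ S) : E Q v z ∈ S := by
  by_cases hi : ∀ c : F, z ≠ c • v
  · have hT := TL.span hv hz hvz hv0 hi
    exact hS _ hT (Submodule.subset_span (by simp)) (E_mem_R hT (Submodule.subset_span (by simp)) (Submodule.subset_span (by simp)))
  · push Not at hi
    obtain ⟨c, rfl⟩ := hi
    rw [E_smul_self hv]
    exact one_mem _

/-- decomposition into singular vectors -/
theorem sing_decomp {x y : V} (h : HP Q x y) (w : V) : ∃ a b : F, ∃ s, Q s = 0 ∧ w = a • x + b • y + s ∧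
    ∀ t, B t x = 0 → B t y = 0 → B t w = 0 → B t s = 0 := by
  obtain ⟨w2, hw2⟩ : ∃ w2, w2 = pr Q x y w := ⟨_, rfl⟩
  have h1 : B x w2 = 0 := by rw [hw2]; exact pr_left h w
  have h2 : B y w2 = 0 := by rw [hw2]; exact pr_right h w
  have hw : w = w2 + B y w • x + B x w • y := by rw [hw2]; unfold pr; abel
  refine ⟨B y w - 1, B x w + Q w2, x + w2 - Q w2 • y, ?_, ?_, ?_⟩
  · rw [qsub, qadd, qsmul, h.1, h.2.1, QuadraticMap.polar_smul_right, QuadraticMap.polar_add_left, h.2.2, h1, bsymm w2 y, h2]; simp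
  · conv_lhs => rw [hw]
    module
  · intro t htx hty htw
    have htw2 : B t w2 = 0 := by rw [hw2, pr_perp htx hty, htw]
    rw [QuadraticMap.polar_sub_right, QuadraticMap.polar_add_right, QuadraticMap.polar_smul_right, htx, hty, htw2]; simp

theorem Good.exists_hp_perp (h : Good Q e f u) {v : V} (hv0 : v ≠ 0) (hv : Q v = 0) :
    ∃ x y, HP Q x y ∧ B v x = 0 ∧ B v y = 0 := by
  obtain ⟨g, -, hg⟩ := h.hs.trans h.nd (e 0) v h.hs.h1.ne hv0 (by rw [h.hs.h1.1, hv])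
  refine ⟨g.1 (e 1), g.1 (f 1), h.hs.h2.map g, ?_, ?_⟩
  · rw [← hg, og_polar]; exact h.hs.ee'
  · rw [← hg, og_polar]; exact h.hs.ef'

theorem Good.QV_le (h : Good Q e f u) {v : V} (hv0 : v ≠ 0) (hv : Q v = 0) (S : Subgroup (EG Q))
    (hS : ∀ L, TL Q L → v ∈ L → R Q L ≤ S) : QV Q v hv ≤ S := by
  obtain ⟨x, y, hxy, hvx, hvy⟩ := h.exists_hp_perp hv0 hv
  rintro _ ⟨w, hw, rfl⟩
  obtain ⟨a, b, s, hs, rfl, hp⟩ := sing_decomp hxy w
  have hvs := hp v hvx hvy hw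
  have h1 : B v (a • x) = 0 := by rw [QuadraticMap.polar_smul_right, hvx, smul_zero]
  have h2 : B v (b • y) = 0 := by rw [QuadraticMap.polar_smul_right, hvy, smul_zero]
  rw [← E_mul hv (by rw [QuadraticMap.polar_add_right, h1, h2, add_zero]) hvs, ← E_mul hv h1 h2]
  refine S.mul_mem (S.mul_mem ?_ ?_) ?_
  · exact E_sing_mem hv0 hv (by rw [qsmul, hxy.1, mul_zero]) h1 S hS
  · exact E_sing_mem hv0 hv (by rw [qsmul, hxy.2.1, mul_zero]) h2 S hS
  · exact E_sing_mem hv0 hv hs hvs S hS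

theorem R_le_QV (hQ : (QuadraticMap.polarBilin Q).Nondegenerate) {v : V} (hv0 : v ≠ 0) (hv : Q v = 0) {L : Submodule F V} (hL : TL Q L)
    (hvL : v ∈ L) : R Q L ≤ QV Q v hv := by
  intro g hg
  obtain ⟨u, hu, hind⟩ := hL.exists_other hv0
  obtain ⟨b, rfl⟩ := (R_mem_iff hQ hL hvL hu hv0 hind g).1 hg
  exact ⟨_, hL.polar hvL (L.smul_mem b hu), rfl⟩

/-- correspondence of points under an automorphism -/
def Cd (Q : QuadraticForm F V) (α : PG Q ≃* PG Q) (v v' : V) : Prop :=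
  ∃ (hv : Q v = 0) (hv' : Q v' = 0), ((QV Q v hv).map (pi Q)).map α.toMonoidHom = (QV Q v' hv').map (pi Q)

theorem Good.cd_of_star [Finite F] (h : Good Q e f u) (α : PG Q ≃* PG Q) {v v' : V} (hv0 : v ≠ 0) (hv : Q v = 0) (hv0' : v' ≠ 0)
    (hv' : Q v' = 0) (hst : ∀ L, TL Q L → (v ∈ L ↔ v' ∈ lm Q α L)) : Cd Q α v v' := by
  refine ⟨hv, hv', ?_⟩
  apply le_antisymm
  · rw [Subgroup.map_le_iff_le_comap, Subgroup.map_le_iff_le_comap]
    apply h.QV_le hv0 hv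
    intro L hL hvL a ha
    obtain ⟨a', ha', haa'⟩ := h.lm_img α hL ha
    exact ⟨a', R_le_QV h.nd hv0' hv' (h.lm_spec α hL).1 ((hst L hL).1 hvL) ha', haa'.symm⟩
  · rw [Subgroup.map_le_iff_le_comap]
    apply h.QV_le hv0' hv'
    intro L' hL' hvL' a' ha'
    rw [← h.lm_symm' α hL'] at ha' hvL'
    have hL := (h.lm_spec α.symm hL').1
    obtain ⟨a, ha, haa'⟩ := h.lm_mem α hL ha'
    exact ⟨_, ⟨a, R_le_QV h.nd hv0 hv hL ((hst _ hL).2 hvL') ha, rfl⟩, haa'⟩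

theorem map_QV (g : EG Q) {v : V} (hv : Q v = 0) (hv' : Q (g.1.1 v) = 0) :
    (QV Q v hv).map (MulAut.conj g).toMonoidHom = QV Q (g.1.1 v) hv' := by
  ext x
  constructor
  · rintro ⟨_, ⟨w, hw, rfl⟩, rfl⟩
    refine ⟨g.1.1 w, by rw [g_polar]; exact hw, ?_⟩
    exact E_conj g v w
  · rintro ⟨w, hw, rfl⟩
    refine ⟨E Q v ((g⁻¹).1.1 w), ⟨_, ?_, rfl⟩, ?_⟩
    · rw [← g_polar g, app_inv]; exact hw
    · have := E_conj g v ((g⁻¹).1.1 w)
      rw [app_inv] at this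
      exact this

theorem Cd.trans_g {α : PG Q ≃* PG Q} {v v' : V} (h : Cd Q α v v') (g k : EG Q) (hk : pi Q k = α (pi Q g)) :
    Cd Q α (g.1.1 v) (k.1.1 v') := by
  obtain ⟨hv, hv', h⟩ := h
  have h1 : Q (g.1.1 v) = 0 := by rw [g_Q]; exact hv
  have h2 : Q (k.1.1 v') = 0 := by rw [g_Q]; exact hv'
  refine ⟨h1, h2, ?_⟩
  rw [← map_QV g hv h1, ← map_QV k hv' h2]
  have e1 : (((QV Q v hv).map (MulAut.conj g).toMonoidHom).map (pi Q)).map α.toMonoidHom =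
      (((QV Q v hv).map (pi Q)).map α.toMonoidHom).map (MulAut.conj (α (pi Q g))).toMonoidHom := by
    simp only [Subgroup.map_map]
    congr 1
    ext x
    simp [MulAut.conj_apply]
  have e2 : ((QV Q v' hv').map (MulAut.conj k).toMonoidHom).map (pi Q) = ((QV Q v' hv').map (pi Q)).map (MulAut.conj (pi Q k)).toMonoidHom := by
    simp only [Subgroup.map_map]
    congr 1
  rw [e1, e2, h, hk]

theorem Good.exists_cd [Finite F] (h : Good Q e f u) (α : PG Q ≃* PG Q) {v : V} (hv0 : v ≠ 0) (hv : Q v = 0) :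
    ∃ v', v' ≠ 0 ∧ Cd Q α v v' := by
  obtain ⟨v1, v1', hv10, hv1, hv10', hv1', hst⟩ := h.exists_star α
  have h1 := h.cd_of_star α hv10 hv1 hv10' hv1' hst
  obtain ⟨g, hg, hgv⟩ := h.hs.trans h.nd v1 v hv10 hv0 (by rw [hv1, hv])
  obtain ⟨k, hk⟩ := QuotientGroup.mk'_surjective (Subgroup.center (EG Q)) (α (pi Q ⟨g, hg⟩))
  have h2 := h1.trans_g ⟨g, hg⟩ k hk
  refine ⟨k.1.1 v1', ?_, ?_⟩
  · rw [Ne, LinearEquiv.map_eq_zero_iff]; exact hv10'
  · have : (⟨g, hg⟩ : EG Q).1.1 v1 = v := hgv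
    rwa [this] at h2

/-- `v` and `v'` opposite -/
theorem QV_inf {v v' x : V} (hv : Q v = 0) (hv' : Q v' = 0) (hvv' : B v v' = 1) {g : EG Q} (h1 : g ∈ QV Q v hv) (h2 : g ∈ QV Q v' hv') :
    g = 1 := by
  obtain ⟨w, hw, rfl⟩ := h1
  obtain ⟨w', hw', hE⟩ := h2
  have h3 : (E Q v w).1.1 v' = v' := by
    rw [hE, E_apply hv' hw', bself hv', bsymm w' v', hw']; simp
  rw [E_apply hv hw, hvv'] at h3
  have h4 : w = (B w v' + Q w) • v := by
    have h5 : w = (v' + (1 : F) • w - B w v' • v - (Q w * 1) • v) + (B w v' + Q w) • v - v' := by module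
    rw [h3] at h5
    conv_lhs => rw [h5]
    abel
  rw [h4, E_smul_self hv]

theorem QV_pow {p : ℕ} [CharP F p] {v : V} (hv : Q v = 0) {g : EG Q} (h1 : g ∈ QV Q v hv) : g ^ p = 1 := by
  obtain ⟨w, hw, rfl⟩ := h1
  exact E_pow_p hv hw

theorem QV_smul {v : V} (hv : Q v = 0) {c : F} (hc : c ≠ 0) (hcv : Q (c • v) = 0) : QV Q (c • v) hcv = QV Q v hv := by
  ext g
  constructor
  · rintro ⟨w, hw, rfl⟩
    rw [QuadraticMap.polar_smul_left, smul_eq_mul, mul_eq_zero] at hw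
    have hw' := hw.resolve_left hc
    exact ⟨c • w, by rw [QuadraticMap.polar_smul_right, hw', smul_zero], E_smul_left hv hw' c⟩
  · rintro ⟨w, hw, rfl⟩
    refine ⟨c⁻¹ • w, ?_, ?_⟩
    · rw [QuadraticMap.polar_smul_left, QuadraticMap.polar_smul_right, hw]; simp
    · rw [E_smul_left hv (by rw [QuadraticMap.polar_smul_right, hw, smul_zero]), smul_smul, mul_inv_cancel₀ hc, one_smul]

theorem Good.opp [Finite F] (h : Good Q e f u) (α : PG Q ≃* PG Q) {v w a b : V} (hvw : HP Q v w) (ha0 : a ≠ 0) (hb0 : b ≠ 0)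
    (ha : Cd Q α v a) (hb : Cd Q α w b) : B a b ≠ 0 := by
  obtain ⟨p, hp⟩ := CharP.exists F
  haveI : Fact p.Prime := ⟨CharP.char_is_prime F p⟩
  obtain ⟨hv, ha', hva⟩ := ha
  obtain ⟨hw, hb', hwb⟩ := hb
  intro hab
  -- an element common to both radicals is trivial
  have key : ∀ g, g ∈ QV Q a ha' → g ∈ QV Q b hb' → g = 1 := by
    intro g hga hgb
    have h1 : pi Q g ∈ ((QV Q v hv).map (pi Q)).map α.toMonoidHom := by rw [hva]; exact ⟨g, hga, rfl⟩
    have h2 : pi Q g ∈ ((QV Q w hw).map (pi Q)).map α.toMonoidHom := by rw [hwb]; exact ⟨g, hgb, rfl⟩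
    obtain ⟨_, ⟨x, hx, rfl⟩, hx'⟩ := h1
    obtain ⟨_, ⟨y, hy, rfl⟩, hy'⟩ := h2
    have h3 : pi Q x = pi Q y := α.injective (hx'.trans hy'.symm)
    have h4 : x = y := h.pi_inj (p := p) 1 (by rw [pow_one]; exact QV_pow hv hx) (by rw [pow_one]; exact QV_pow hw hy) h3
    rw [← h4] at hy
    have h5 : x = 1 := QV_inf (x := x.1.1 v) hv hw hvw.2.2 hx hy
    rw [h5, map_one, map_one] at hx'
    exact h.hK (p := p) g 1 (by rw [pow_one]; exact QV_pow ha' hga) hx'.symm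
  by_cases hi : ∀ c : F, b ≠ c • a
  · have h1 := key (E Q a b) ⟨b, hab, rfl⟩ (by
      rw [E_swap ha' hb' hab]
      exact ⟨-a, by rw [QuadraticMap.polar_neg_right, bsymm, hab, neg_zero], rfl⟩)
    rw [← E_zero (Q := Q) (v := a)] at h1
    obtain ⟨c, hc⟩ := E_inj h.nd ha0 ha' (by simp) hab h1.symm
    exact hi c (by rw [hc, zero_add])
  · push Not at hi
    obtain ⟨c, rfl⟩ := hi
    have hc : c ≠ 0 := by rintro rfl; exact hb0 (zero_smul _ _)
    obtain ⟨x, y, hxy, hax, hay⟩ := h.exists_hp_perp ha0 ha'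
    have h1 := key (E Q a x) ⟨x, hax, rfl⟩ (by rw [QV_smul ha' hc]; exact ⟨x, hax, rfl⟩)
    rw [← E_zero (Q := Q) (v := a)] at h1
    obtain ⟨d, hd⟩ := E_inj h.nd ha0 ha' (by simp) hax h1.symm
    have h2 := hxy.2.2
    rw [hd, zero_add, QuadraticMap.polar_smul_left, hay, smul_zero] at h2
    exact zero_ne_one h2

/-- up to an inner automorphism the groups of a hyperbolic pair are preserved -/
theorem Good.normalize [Finite F] (h : Good Q e f u) (α : PG Q ≃* PG Q) :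
    ∃ k : EG Q, Cd Q (α.trans (MulAut.conj (pi Q k))) (e 0) (e 0) ∧ Cd Q (α.trans (MulAut.conj (pi Q k))) (f 0) (f 0) := by
  have h1 := h.hs.h1
  obtain ⟨a, ha0, ha⟩ := h.exists_cd α h1.ne h1.1
  obtain ⟨b, hb0, hb⟩ := h.exists_cd α h1.symm.ne h1.2.1
  have hab := h.opp α h1 ha0 hb0 ha hb
  have hqa : Q a = 0 := by obtain ⟨_, h, _⟩ := ha; exact h
  have hqb : Q b = 0 := by obtain ⟨_, h, _⟩ := hb; exact h
  have hp : HP Q a ((B a b)⁻¹ • b) := ⟨hqa, by rw [qsmul, hqb, mul_zero], by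
    rw [QuadraticMap.polar_smul_right, smul_eq_mul, inv_mul_cancel₀ hab]⟩
  obtain ⟨k, hk, c, d, hkc, hkd⟩ := h.hs.move_hp h.nd (Or.inr (by have := h.h5; omega)) _ _ _ _ hp h1
  have hc : c ≠ 0 := by
    rintro rfl
    rw [zero_smul, LinearEquiv.map_eq_zero_iff] at hkc
    exact ha0 hkc
  have hd : d ≠ 0 := by
    rintro rfl
    rw [zero_smul, LinearEquiv.map_eq_zero_iff, smul_eq_zero] at hkd
    rcases hkd with h | h
    · exact hab (inv_eq_zero.1 h)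
    · exact hb0 h
  have gen : ∀ (v w : V) (c : F), c ≠ 0 → Cd Q α v w → k.1 w = c • v → Cd Q (α.trans (MulAut.conj (pi Q ⟨k, hk⟩))) v v := by
    rintro v w c hc ⟨hv, hw, he⟩ hkw
    refine ⟨hv, hv, ?_⟩
    have e1 : ((QV Q v hv).map (pi Q)).map (α.trans (MulAut.conj (pi Q ⟨k, hk⟩))).toMonoidHom =
        (((QV Q v hv).map (pi Q)).map α.toMonoidHom).map (MulAut.conj (pi Q ⟨k, hk⟩)).toMonoidHom := by
      rw [Subgroup.map_map (G := PG Q)]
      rfl
    have e2 : ((QV Q w hw).map (pi Q)).map (MulAut.conj (pi Q ⟨k, hk⟩)).toMonoidHom = ((QV Q w hw).map (MulAut.conj (⟨k, hk⟩ : EG Q)).toMonoidHom).map (pi Q) := by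
      simp only [Subgroup.map_map]
      congr 1
    have hcv : Q (c • v) = 0 := by rw [qsmul, hv, mul_zero]
    have e3 := map_QV (⟨k, hk⟩ : EG Q) hw (by rw [g_Q]; exact hw)
    have e4 : QV Q ((⟨k, hk⟩ : EG Q).1.1 w) (by rw [g_Q]; exact hw) = QV Q (c • v) hcv := by
      have : (⟨k, hk⟩ : EG Q).1.1 w = c • v := hkw
      simp only [this]
    rw [e1, he, e2, e3, e4, QV_smul hv hc]
  refine ⟨⟨k, hk⟩, gen _ a c hc ha hkc, gen _ b (B a b * d) (mul_ne_zero hab hd) hb ?_⟩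
  have : b = B a b • ((B a b)⁻¹ • b) := by rw [smul_smul, mul_inv_cancel₀ hab, one_smul]
  rw [this, map_smul, hkd, smul_smul, ← this]

end

end CfsgLib.AutO27
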