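import Cfsg.Agent.LibAutO27g

set_option autoImplicit false

/-! Additive maps preserving singular points are semisimilarities. -/

namespace CfsgLib.AutO27

open Cfsg.Agent.H22 CfsgLib.SylCen27 Module

variable {F V : Type*} [Field F] [AddCommGroup V] [Module F V] {Q : QuadraticForm F V}

local notation "B" => QuadraticMap.polar Q

variable {e f : Fin 3 → V} {u : V}

/-- in the orthogonal space of the plane `⟨x, y⟩` -/
def InW (Q : QuadraticForm F V) (x y w : V) : Prop := QuadraticMap.polar Q x w = 0 ∧ QuadraticMap.polar Q y w = 0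

theorem InW.add {x y w w' : V} (h : InW Q x y w) (h' : InW Q x y w') : InW Q x y (w + w') :=
  ⟨by rw [QuadraticMap.polar_add_right, h.1, h'.1, add_zero], by rw [QuadraticMap.polar_add_right, h.2, h'.2, add_zero]⟩

theorem InW.smul {x y w : V} (h : InW Q x y w) (c : F) : InW Q x y (c • w) :=
  ⟨by rw [QuadraticMap.polar_smul_right, h.1, smul_zero], by rw [QuadraticMap.polar_smul_right, h.2, smul_zero]⟩

theorem InW.neg {x y w : V} (h : InW Q x y w) : InW Q x y (-w) := by
  have := h.smul (-1 : F)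
  rwa [neg_one_smul] at this

theorem InW.sub {x y w w' : V} (h : InW Q x y w) (h' : InW Q x y w') : InW Q x y (w - w') := by
  rw [sub_eq_add_neg]; exact h.add h'.neg

theorem InW.zero (x y : V) : InW Q x y 0 := ⟨by simp, by simp⟩

theorem Fr.inW_e (h : Fr Q e f u) {i : Fin 3} (hi : i ≠ 0) : InW Q (e 0) (f 0) (e i) :=
  ⟨h.ee _ _, h.fe' _ _ (Ne.symm hi)⟩

theorem Fr.inW_f (h : Fr Q e f u) {i : Fin 3} (hi : i ≠ 0) : InW Q (e 0) (f 0) (f i) :=
  ⟨h.ef' _ _ (Ne.symm hi), h.ff _ _⟩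

theorem semilin [FiniteDimensional F V] [Finite F] (h : Fr Q e f u) (φ : V → V) (hW : ∀ w, InW Q (e 0) (f 0) w → InW Q (e 0) (f 0) (φ w))
    (hadd : ∀ w w', InW Q (e 0) (f 0) w → InW Q (e 0) (f 0) w' → φ (w + w') = φ w + φ w')
    (hinj : ∀ w, InW Q (e 0) (f 0) w → φ w = 0 → w = 0)
    (hsurj : ∀ w, InW Q (e 0) (f 0) w → ∃ w0, InW Q (e 0) (f 0) w0 ∧ φ w0 = w)
    (hsing : ∀ w, InW Q (e 0) (f 0) w → Q w = 0 → Q (φ w) = 0)
    (hline : ∀ w, ∀ c : F, InW Q (e 0) (f 0) w → Q w = 0 → ∃ c' : F, φ (c • w) = c' • φ w)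
    (hpar : ∀ w w', InW Q (e 0) (f 0) w → InW Q (e 0) (f 0) w' → Q w = 0 → Q w' = 0 → w ≠ 0 → (∃ c : F, φ w' = c • φ w) →
      ∃ c : F, w' = c • w) :
    ∃ σ : F ≃+* F, ∃ c0 : F, c0 ≠ 0 ∧ (∀ (c : F) w, InW Q (e 0) (f 0) w → φ (c • w) = σ c • φ w) ∧
      ∀ w, InW Q (e 0) (f 0) w → Q (φ w) = c0 * σ (Q w) := by
  have h0 : φ 0 = 0 := by
    have := hadd 0 0 (InW.zero _ _) (InW.zero _ _)
    rw [add_zero] at this
    exact left_eq_add.mp this
  -- scalars
  have hex : ∀ (w : V) (c : F), ∃ c' : F, InW Q (e 0) (f 0) w → Q w = 0 → φ (c • w) = c' • φ w := by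
    intro w c
    by_cases hw : InW Q (e 0) (f 0) w ∧ Q w = 0
    · obtain ⟨c', hc'⟩ := hline w c hw.1 hw.2
      exact ⟨c', fun _ _ => hc'⟩
    · exact ⟨0, fun h1 h2 => absurd ⟨h1, h2⟩ hw⟩
  choose l hl using hex
  -- perpendicular nonparallel vectors
  have hA : ∀ w w', InW Q (e 0) (f 0) w → InW Q (e 0) (f 0) w' → Q w = 0 → Q w' = 0 → B w w' = 0 → w ≠ 0 → (∀ c : F, w' ≠ c • w) →
      ∀ c, l w c = l w' c := by
    intro w w' hw hw' hq hq' hww hw0 hi c
    have hφ : φ w ≠ 0 := fun h => hw0 (hinj _ hw h)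
    have hi' : ∀ d : F, φ w' ≠ d • φ w := by
      intro d hd
      obtain ⟨t, ht⟩ := hpar w w' hw hw' hq hq' hw0 ⟨d, hd⟩
      exact hi t ht
    have hqq : Q (w + w') = 0 := by rw [qadd, hq, hq', hww]; simp
    have h1 := hl (w + w') c (hw.add hw') hqq
    rw [smul_add, hadd _ _ (hw.smul c) (hw'.smul c), hadd _ _ hw hw', hl w c hw hq, hl w' c hw' hq', smul_add] at h1
    have h2 : (l w c - l (w + w') c) • φ w + (l w' c - l (w + w') c) • φ w' = 0 := by
      rw [sub_smul, sub_smul]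
      have : l w c • φ w - l (w + w') c • φ w + (l w' c • φ w' - l (w + w') c • φ w') =
        (l w c • φ w + l w' c • φ w') - (l (w + w') c • φ w + l (w + w') c • φ w') := by abel
      rw [this, h1, sub_self]
    have h3 : l w' c - l (w + w') c = 0 := by
      by_contra hne
      apply hi' (-(l w' c - l (w + w') c)⁻¹ * (l w c - l (w + w') c))
      rw [mul_smul, eq_neg_of_add_eq_zero_left h2, neg_smul, smul_neg, neg_neg, smul_smul, inv_mul_cancel₀ hne, one_smul]
    rw [h3, zero_smul, add_zero] at h2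
    have h4 := (smul_eq_zero.1 h2).resolve_right hφ
    rw [sub_eq_zero.1 h4, sub_eq_zero.1 h3]
  have he1 := h.inW_e (i := 1) (by decide)
  have he2 := h.inW_e (i := 2) (by decide)
  have i12 : ∀ c : F, e 2 ≠ c • e 1 := ne_of_B (t := f 2) (h.fe' _ _ (by decide)) (by rw [h.fe]; exact one_ne_zero)
  have e10 := (h.hp 1).ne
  have e20 := (h.hp 2).ne
  -- vectors of the line `⟨e₁,e₂⟩`
  have hline2 : ∀ a b : F, a • e 1 + b • e 2 ≠ 0 → ∀ c, l (a • e 1 + b • e 2) c = l (e 1) c := by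
    intro a b hab c
    have hz : InW Q (e 0) (f 0) (a • e 1 + b • e 2) := (he1.smul a).add (he2.smul b)
    have hqz : Q (a • e 1 + b • e 2) = 0 := by
      rw [qadd, qsmul, qsmul, h.qe, h.qe, QuadraticMap.polar_smul_left, QuadraticMap.polar_smul_right, h.ee]; simp
    have hb1 : B (a • e 1 + b • e 2) (e 1) = 0 := by
      rw [QuadraticMap.polar_add_left, QuadraticMap.polar_smul_left, QuadraticMap.polar_smul_left, h.ee, h.ee]; simp
    have hb2 : B (a • e 1 + b • e 2) (e 2) = 0 := by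
      rw [QuadraticMap.polar_add_left, QuadraticMap.polar_smul_left, QuadraticMap.polar_smul_left, h.ee, h.ee]; simp
    by_cases hi : ∀ d : F, e 1 ≠ d • (a • e 1 + b • e 2)
    · exact hA _ _ hz he1 hqz (h.qe _) hb1 hab hi c
    · push Not at hi
      obtain ⟨d, hd⟩ := hi
      have hi2 : ∀ d' : F, e 2 ≠ d' • (a • e 1 + b • e 2) := by
        intro d' hd'
        have hd0 : d ≠ 0 := by
          rintro rfl
          rw [zero_smul] at hd
          exact e10 hd
        apply i12 (d' * d⁻¹)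
        have h3 : d⁻¹ • e 1 = a • e 1 + b • e 2 := by
          conv_lhs => rw [hd]
          rw [smul_smul, inv_mul_cancel₀ hd0, one_smul]
        rw [mul_smul, h3]
        exact hd'
      rw [hA _ _ hz he2 hqz (h.qe _) hb2 hab hi2 c]
      exact (hA _ _ he1 he2 (h.qe _) (h.qe _) (h.ee _ _) e10 i12 c).symm
  have hall : ∀ w, InW Q (e 0) (f 0) w → Q w = 0 → w ≠ 0 → ∀ c, l w c = l (e 1) c := by
    intro w hw hqw hw0 c
    by_cases hin : ∃ a b : F, w = a • e 1 + b • e 2
    · obtain ⟨a, b, rfl⟩ := hin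
      exact hline2 a b hw0 c
    · push Not at hin
      obtain ⟨a, b, hab, hz⟩ : ∃ a b : F, a • e 1 + b • e 2 ≠ 0 ∧ B w (a • e 1 + b • e 2) = 0 := by
        by_cases h1 : B w (e 1) = 0
        · exact ⟨1, 0, by rw [one_smul, zero_smul, add_zero]; exact e10, by rw [one_smul, zero_smul, add_zero]; exact h1⟩
        · refine ⟨B w (e 2), - B w (e 1), ?_, ?_⟩
          · intro h2
            apply i12 ((B w (e 1))⁻¹ * B w (e 2))
            rw [mul_smul, eq_neg_of_add_eq_zero_left h2, neg_smul, neg_neg, smul_smul, inv_mul_cancel₀ h1, one_smul]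
          · rw [QuadraticMap.polar_add_right, QuadraticMap.polar_smul_right, QuadraticMap.polar_smul_right, smul_eq_mul, smul_eq_mul]; ring
      rw [← hline2 a b hab c]
      have hqz : Q (a • e 1 + b • e 2) = 0 := by
        rw [qadd, qsmul, qsmul, h.qe, h.qe, QuadraticMap.polar_smul_left, QuadraticMap.polar_smul_right, h.ee]; simp
      refine hA w _ hw ((he1.smul a).add (he2.smul b)) hqw hqz hz hw0 ?_ c
      intro d hd
      have hd0 : d ≠ 0 := by
        rintro rfl
        rw [zero_smul] at hd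
        exact hab hd
      apply hin (d⁻¹ * a) (d⁻¹ * b)
      rw [mul_smul, mul_smul, ← smul_add, hd, smul_smul, inv_mul_cancel₀ hd0, one_smul]
  have hφ1 : φ (e 1) ≠ 0 := fun hh => e10 (hinj _ he1 hh)
  -- the field automorphism
  have key : ∀ c w, InW Q (e 0) (f 0) w → Q w = 0 → φ (c • w) = l (e 1) c • φ w := by
    intro c w hw hqw
    by_cases hw0 : w = 0
    · rw [hw0, smul_zero, h0, smul_zero]
    · rw [hl w c hw hqw, hall w hw hqw hw0]
  have h1' : ∀ c, φ (c • e 1) = l (e 1) c • φ (e 1) := fun c => key c _ he1 (h.qe _)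
  have hmul : ∀ a b, l (e 1) (a * b) = l (e 1) a * l (e 1) b := by
    intro a b
    have h2 := h1' (a * b)
    rw [mul_smul, key a _ (he1.smul b) (by rw [qsmul, h.qe, mul_zero]), h1' b, smul_smul] at h2
    have h3 : (l (e 1) a * l (e 1) b - l (e 1) (a * b)) • φ (e 1) = 0 := by rw [sub_smul, h2, sub_self]
    exact (sub_eq_zero.1 ((smul_eq_zero.1 h3).resolve_right hφ1)).symm
  have hadd' : ∀ a b, l (e 1) (a + b) = l (e 1) a + l (e 1) b := by
    intro a b
    have h2 := h1' (a + b)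
    rw [add_smul, hadd _ _ (he1.smul a) (he1.smul b), h1', h1', ← add_smul] at h2
    have h3 : (l (e 1) a + l (e 1) b - l (e 1) (a + b)) • φ (e 1) = 0 := by rw [sub_smul, h2, sub_self]
    exact (sub_eq_zero.1 ((smul_eq_zero.1 h3).resolve_right hφ1)).symm
  have hone : l (e 1) 1 = 1 := by
    have h2 := h1' 1
    rw [one_smul] at h2
    have h3 : (l (e 1) 1 - 1) • φ (e 1) = 0 := by rw [sub_smul, one_smul, ← h2, sub_self]
    exact sub_eq_zero.1 ((smul_eq_zero.1 h3).resolve_right hφ1)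
  have hzero : l (e 1) 0 = 0 := by
    have := hadd' 0 0
    rw [add_zero] at this
    exact left_eq_add.mp this
  let σ0 : F →+* F := { toFun := l (e 1), map_one' := hone, map_mul' := hmul, map_zero' := hzero, map_add' := hadd' }
  have hbij : Function.Bijective σ0 := Finite.injective_iff_bijective.1 σ0.injective
  let σ : F ≃+* F := RingEquiv.ofBijective σ0 hbij
  have hσ : ∀ c, σ c = l (e 1) c := fun c => rfl
  -- semilinearity on `W`
  have hf1 := h.inW_f (i := 1) (by decide)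
  have hf2 := h.inW_f (i := 2) (by decide)
  have hsm : ∀ (c : F) w, InW Q (e 0) (f 0) w → φ (c • w) = σ c • φ w := by
    intro c w hw
    obtain ⟨a, b, s, hs, rfl, hp⟩ := sing_decomp (h.hp 1) w
    have hsW : InW Q (e 0) (f 0) s := by
      have h3 := (hw.sub (he1.smul a)).sub (hf1.smul b)
      have : a • e 1 + b • f 1 + s - a • e 1 - b • f 1 = s := by abel
      rwa [this] at h3
    have ha := he1.smul a
    have hb := hf1.smul b
    rw [smul_add, smul_add, hadd _ _ ((ha.smul c).add (hb.smul c)) (hsW.smul c), hadd _ _ (ha.smul c) (hb.smul c),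
      hadd _ _ (ha.add hb) hsW, hadd _ _ ha hb, key c _ ha (by rw [qsmul, h.qe, mul_zero]), key c _ hb (by rw [qsmul, h.qf, mul_zero]),
      key c _ hsW hs, hσ, smul_add, smul_add]
  -- the form
  have hperp : ∀ w w', InW Q (e 0) (f 0) w → InW Q (e 0) (f 0) w' → Q w = 0 → Q w' = 0 → B w w' = 0 → B (φ w) (φ w') = 0 := by
    intro w w' hw hw' hq hq' hww
    have h2 := hsing (w + w') (hw.add hw') (by rw [qadd, hq, hq', hww]; simp)
    rw [hadd _ _ hw hw', qadd, hsing w hw hq, hsing w' hw' hq'] at h2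
    linear_combination h2
  have hperp2 : ∀ z, InW Q (e 0) (f 0) z → Q z = 0 → B z (e 2) = 0 → B z (f 2) = 0 → ∀ w, InW Q (e 0) (f 0) w → B z w = 0 →
      B (φ z) (φ w) = 0 := by
    intro z hz hqz hz2 hz2' w hw hzw
    obtain ⟨a, b, s, hs, rfl, hp⟩ := sing_decomp (h.hp 2) w
    have hsW : InW Q (e 0) (f 0) s := by
      have h3 := (hw.sub (he2.smul a)).sub (hf2.smul b)
      have : a • e 2 + b • f 2 + s - a • e 2 - b • f 2 = s := by abel
      rwa [this] at h3
    rw [hadd _ _ ((he2.smul a).add (hf2.smul b)) hsW, hadd _ _ (he2.smul a) (hf2.smul b), QuadraticMap.polar_add_right,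
      QuadraticMap.polar_add_right, hperp _ _ hz (he2.smul a) hqz (by rw [qsmul, h.qe, mul_zero]) (by rw [QuadraticMap.polar_smul_right, hz2, smul_zero]),
      hperp _ _ hz (hf2.smul b) hqz (by rw [qsmul, h.qf, mul_zero]) (by rw [QuadraticMap.polar_smul_right, hz2', smul_zero]),
      hperp _ _ hz hsW hqz hs (hp z hz2 hz2' hzw)]
    simp
  obtain ⟨c0, hc0⟩ : ∃ c0, c0 = B (φ (e 1)) (φ (f 1)) := ⟨_, rfl⟩
  have hneg : ∀ w, InW Q (e 0) (f 0) w → φ (-w) = - φ w := by
    intro w hw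
    have h2 := hadd w (-w) hw hw.neg
    rw [add_neg_cancel, h0] at h2
    exact (neg_eq_of_add_eq_zero_right h2.symm).symm
  have hq : ∀ w, InW Q (e 0) (f 0) w → Q (φ w) = c0 * σ (Q w) := by
    intro w hw
    obtain ⟨w2, hw2⟩ : ∃ w2, w2 = pr Q (e 1) (f 1) w := ⟨_, rfl⟩
    have h1 : B (e 1) w2 = 0 := by rw [hw2]; exact pr_left (h.hp 1) w
    have h2 : B (f 1) w2 = 0 := by rw [hw2]; exact pr_right (h.hp 1) w
    have hww : w = B (f 1) w • e 1 + B (e 1) w • f 1 + w2 := by rw [hw2]; unfold pr; abel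
    have hw2W : InW Q (e 0) (f 0) w2 := by
      have h3 := (hw.sub (he1.smul (B (f 1) w))).sub (hf1.smul (B (e 1) w))
      rw [hw2]; exact h3
    have p1 := hperp2 (e 1) he1 (h.qe 1) (h.ee _ _) (h.ef' _ _ (by decide)) w2 hw2W h1
    have p2 := hperp2 (f 1) hf1 (h.qf 1) (h.fe' _ _ (by decide)) (h.ff _ _) w2 hw2W h2
    have hs : Q (e 1 + w2 + (-(Q w2)) • f 1) = 0 := by
      rw [qadd, qadd, qsmul, h.qe, h.qf, QuadraticMap.polar_smul_right, QuadraticMap.polar_add_left, h.ef, h1, bsymm w2 (f 1), h2]; simp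
    have hs2 := hsing _ ((he1.add hw2W).add (hf1.smul (-(Q w2)))) hs
    rw [hadd _ _ (he1.add hw2W) (hf1.smul _), hadd _ _ he1 hw2W, hsm _ _ hf1, qadd, qadd, qsmul, hsing _ he1 (h.qe _), hsing _ hf1 (h.qf _),
      QuadraticMap.polar_smul_right, QuadraticMap.polar_add_left, ← hc0, p1, bsymm (φ w2), p2, map_neg] at hs2
    have hq2 : Q (φ w2) = c0 * σ (Q w2) := by
      simp only [smul_eq_mul] at hs2
      linear_combination hs2
    generalize B (f 1) w = a at hww
    generalize B (e 1) w = b at hww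
    rw [hww, hadd _ _ ((he1.smul a).add (hf1.smul b)) hw2W, hadd _ _ (he1.smul a) (hf1.smul b), hsm _ _ he1, hsm _ _ hf1]
    simp only [qadd, qsmul, QuadraticMap.polar_add_left, QuadraticMap.polar_smul_left, QuadraticMap.polar_smul_right, h.qe, h.qf, h.ef,
      hsing _ he1 (h.qe _), hsing _ hf1 (h.qf _), ← hc0, p1, p2, h1, h2, hq2, smul_eq_mul, map_add, map_mul, map_zero, map_one]
    ring
  refine ⟨σ, c0, ?_, hsm, hq⟩
  intro hc
  obtain ⟨w1, hw1, hw1'⟩ := hsurj (e 1 + f 1) (he1.add hf1)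
  have h2 := hq w1 hw1
  rw [hw1', hc, zero_mul, qadd, h.qe, h.qf, h.ef] at h2
  simp at h2

end CfsgLib.AutO27
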