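import Cfsg.Agent.LibAutO27h

set_option autoImplicit false

/-! Semisimilarities act on the Eichler group. -/

namespace CfsgLib.AutO27

open Cfsg.Agent.H22 CfsgLib.SylCen27 Module

variable {F V : Type*} [Field F] [AddCommGroup V] [Module F V] {Q : QuadraticForm F V}

local notation "B" => QuadraticMap.polar Q

/-- a semisimilarity -/
structure SS (Q : QuadraticForm F V) where
  S : V ≃+ V
  σ : F ≃+* F
  c : F
  c0 : c ≠ 0
  smul : ∀ (a : F) x, S (a • x) = σ a • S x
  q : ∀ x, Q (S x) = c * σ (Q x)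

/-- inverse semisimilarity -/
def SS.symm (s : SS Q) : SS Q where
  S := s.S.symm
  σ := s.σ.symm
  c := s.σ.symm s.c⁻¹
  c0 := by rw [Ne, map_eq_zero_iff _ s.σ.symm.injective]; exact inv_ne_zero s.c0
  smul a x := by
    apply s.S.injective
    rw [s.smul]; simp
  q x := by
    apply s.σ.injective
    rw [map_mul]
    simp only [RingEquiv.apply_symm_apply]
    have h := s.q (s.S.symm x)
    rw [AddEquiv.apply_symm_apply] at h
    rw [h, inv_mul_cancel_left₀ s.c0]

theorem SS.polar (s : SS Q) (x y : V) : B (s.S x) (s.S y) = s.c * s.σ (B x y) := by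
  unfold QuadraticMap.polar
  rw [← map_add, s.q, s.q, s.q, map_sub, map_sub]; ring

/-- conjugation on the orthogonal group -/
def SS.conjO (s : SS Q) (g : OGrp Q) : OGrp Q :=
  ⟨{ toFun := fun x => s.S (g.1 (s.S.symm x))
     map_add' := fun x y => by rw [map_add, map_add, map_add]
     map_smul' := fun a x => by
      have h := s.symm.smul a x
      have h' : s.S.symm (a • x) = s.σ.symm a • s.S.symm x := h
      rw [h', map_smul, s.smul]
      simp
     invFun := fun x => s.S (g.1.symm (s.S.symm x))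
     left_inv := fun x => by simp
     right_inv := fun x => by simp }, fun x => by
    show Q (s.S (g.1 (s.S.symm x))) = Q x
    rw [s.q, og_Q]
    have h := s.q (s.S.symm x)
    rw [AddEquiv.apply_symm_apply] at h
    exact h.symm⟩

theorem SS.conjO_apply (s : SS Q) (g : OGrp Q) (x : V) : (s.conjO g).1 x = s.S (g.1 (s.S.symm x)) := rfl

theorem SS.conjO_S (s : SS Q) (g : OGrp Q) (x : V) : (s.conjO g).1 (s.S x) = s.S (g.1 x) := by
  rw [s.conjO_apply, AddEquiv.symm_apply_apply]

theorem SS.conjO_mul (s : SS Q) (g h : OGrp Q) : s.conjO (g * h) = s.conjO g * s.conjO h := by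
  apply og_ext
  intro x
  rw [og_mul_apply, s.conjO_apply, s.conjO_apply, s.conjO_apply, AddEquiv.symm_apply_apply, og_mul_apply]

theorem SS.conjO_one (s : SS Q) : s.conjO 1 = 1 := by
  apply og_ext
  intro x
  rw [s.conjO_apply]
  show s.S (s.S.symm x) = x
  simp

theorem SS.conjO_oEich (s : SS Q) (v w : V) (hv : Q v = 0) (hw : B v w = 0) : ∃ (hv' : Q (s.S v) = 0) (hw' : B (s.S v) (s.c⁻¹ • s.S w) = 0),
    s.conjO (oEich Q v w hv hw) = oEich Q (s.S v) (s.c⁻¹ • s.S w) hv' hw' := by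
  refine ⟨by rw [s.q, hv, map_zero, mul_zero], by rw [QuadraticMap.polar_smul_right, s.polar, hw, map_zero, mul_zero, smul_zero], ?_⟩
  apply og_ext
  intro x
  obtain ⟨y, rfl⟩ := s.S.surjective x
  rw [s.conjO_S, oEich_apply, oEich_apply, map_sub, map_sub, map_add, s.smul, s.smul, s.smul, s.polar, qsmul, s.q,
    QuadraticMap.polar_smul_left, s.polar, smul_smul, map_mul]
  have hc := s.c0
  have e1 : s.c * s.σ (B v y) * s.c⁻¹ = s.σ (B v y) := by field_simp
  have e2 : s.c⁻¹ • (s.c * s.σ (B w y)) = s.σ (B w y) := by rw [smul_eq_mul]; field_simp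
  have e3 : s.c⁻¹ * s.c⁻¹ * (s.c * s.σ (Q w)) * (s.c * s.σ (B v y)) = s.σ (Q w) * s.σ (B v y) := by field_simp
  rw [e1, e2, e3]

theorem SS.conjO_mem (s : SS Q) {g : OGrp Q} (hg : g ∈ EG Q) : s.conjO g ∈ EG Q := by
  unfold EG at hg
  induction hg using Subgroup.closure_induction with
  | mem x hx =>
    obtain ⟨v, w, hv, hw, rfl⟩ := hx
    obtain ⟨hv', hw', h⟩ := s.conjO_oEich v w hv hw
    rw [h]
    exact oEich_mem _ _ _ _
  | one => rw [s.conjO_one]; exact one_mem _
  | mul x y _ _ hx hy => rw [s.conjO_mul]; exact mul_mem hx hy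
  | inv x _ hx =>
    have h : s.conjO x⁻¹ = (s.conjO x)⁻¹ := by
      rw [eq_inv_iff_mul_eq_one, ← s.conjO_mul, inv_mul_cancel, s.conjO_one]
    rw [h]; exact inv_mem hx

/-- the automorphism of `EG` -/
def SS.aut (s : SS Q) : EG Q ≃* EG Q where
  toFun g := ⟨s.conjO g.1, s.conjO_mem g.2⟩
  invFun g := ⟨s.symm.conjO g.1, s.symm.conjO_mem g.2⟩
  left_inv g := by
    apply g_ext
    intro x
    show s.S.symm (s.S (g.1.1 (s.S.symm (s.S.symm.symm x)))) = g.1.1 x
    simp
  right_inv g := by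
    apply g_ext
    intro x
    show s.S (s.S.symm (g.1.1 (s.S.symm.symm (s.S.symm x)))) = g.1.1 x
    simp
  map_mul' a b := Subtype.ext (s.conjO_mul a.1 b.1)

theorem SS.aut_S (s : SS Q) (g : EG Q) (x : V) : (s.aut g).1.1 (s.S x) = s.S (g.1.1 x) := s.conjO_S g.1 x

theorem SS.aut_E (s : SS Q) (v w : V) (hv : Q v = 0) (hw : B v w = 0) : s.aut (E Q v w) = E Q (s.S v) (s.c⁻¹ • s.S w) := by
  obtain ⟨hv', hw', h⟩ := s.conjO_oEich v w hv hw
  rw [E_def hv hw, E_def hv' hw']
  exact Subtype.ext h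

/-- the automorphism of the quotient -/
noncomputable def SS.autP (s : SS Q) : PG Q ≃* PG Q := quotCenterCongr s.aut

theorem quotCenterCongr_mk {A C : Type*} [Group A] [Group C] (e : A ≃* C) (a : A) :
    quotCenterCongr e (QuotientGroup.mk a) = QuotientGroup.mk (e a) := rfl

theorem SS.autP_pi (s : SS Q) (g : EG Q) : s.autP (pi Q g) = pi Q (s.aut g) := rfl

/-- composition with an isometry -/
def SS.compG (s : SS Q) (k : EG Q) : SS Q where
  S := s.S.trans k.1.1.toAddEquiv
  σ := s.σ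
  c := s.c
  c0 := s.c0
  smul a x := by
    show k.1.1 (s.S (a • x)) = s.σ a • k.1.1 (s.S x)
    rw [s.smul, map_smul]
  q x := by
    show Q (k.1.1 (s.S x)) = _
    rw [g_Q, s.q]

theorem SS.aut_compG (s : SS Q) (k g : EG Q) : (s.compG k).aut g = k * s.aut g * k⁻¹ := by
  apply g_ext
  intro x
  obtain ⟨y, rfl⟩ := (s.compG k).S.surjective x
  rw [(s.compG k).aut_S, mul_app, mul_app]
  have h : (s.compG k).S y = k.1.1 (s.S y) := rfl
  rw [h, inv_app, s.aut_S]
  rfl

end CfsgLib.AutO27
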