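import Cfsg.Agent.LibAutO27i

set_option autoImplicit false

/-! Every automorphism of `EG / Z` is induced by a semisimilarity. -/

namespace CfsgLib.AutO27

open Cfsg.Agent.H22 CfsgLib.SylCen27 Module

variable {F V : Type*} [Field F] [AddCommGroup V] [Module F V] {Q : QuadraticForm F V}

local notation "B" => QuadraticMap.polar Q

variable {e f : Fin 3 → V} {u : V}

section
variable [FiniteDimensional F V]

/-- generation by two opposite groups -/
theorem Good.gen (h : Good Q e f u) (K : Subgroup (EG Q)) (h1 : QV Q (e 0) (h.fr.qe 0) ≤ K) (h2 : QV Q (f 0) (h.fr.qf 0) ≤ K) : K = ⊤ := by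
  have hs := h.hs
  have hQ := h.nd
  have step1 : ∀ v, v ≠ 0 → ∃ g ∈ K, B (e 0) (g.1.1 v) ≠ 0 := by
    intro v hv
    by_cases hev : B (e 0) v = 0
    swap
    · exact ⟨1, one_mem _, hev⟩
    have key : ∃ w, QuadraticMap.polar Q (e 0) w = 0 ∧ QuadraticMap.polar Q (f 0) w = 0 ∧
        QuadraticMap.polar Q w v + Q w * QuadraticMap.polar Q (f 0) v ≠ 0 := by
      by_cases ha : QuadraticMap.polar Q (f 0) v = 0
      · obtain ⟨x, hx⟩ := exists_polar_ne hQ hv
        refine ⟨x - QuadraticMap.polar Q (f 0) x • (e 0) - QuadraticMap.polar Q (e 0) x • (f 0), ?_, ?_, ?_⟩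
        · simp only [QuadraticMap.polar_sub_right, QuadraticMap.polar_smul_right, hs.h1.ee, hs.h1.2.2, smul_eq_mul]; ring
        · simp only [QuadraticMap.polar_sub_right, QuadraticMap.polar_smul_right, hs.h1.ff, hs.h1.fe, smul_eq_mul]; ring
        · rw [ha, mul_zero, add_zero]
          simp only [QuadraticMap.polar_sub_left, QuadraticMap.polar_smul_left, hev, ha, smul_eq_mul, mul_zero, sub_zero]
          exact hx
      · by_cases h1 : QuadraticMap.polar Q (e 1) v = 0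
        · by_cases h2 : QuadraticMap.polar Q (f 1) v = 0
          · refine ⟨e 1 + f 1, ?_, ?_, ?_⟩
            · rw [QuadraticMap.polar_add_right, hs.ee', hs.ef', add_zero]
            · rw [QuadraticMap.polar_add_right, hs.fe', hs.ff', add_zero]
            · rw [QuadraticMap.polar_add_left, h1, h2, qadd, hs.h2.1, hs.h2.2.1, hs.h2.2.2]
              simpa using ha
          · exact ⟨f 1, hs.ef', hs.ff', by rw [hs.h2.2.1, zero_mul, add_zero]; exact h2⟩
        · exact ⟨e 1, hs.ee', hs.fe', by rw [hs.h2.1, zero_mul, add_zero]; exact h1⟩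
    obtain ⟨w, hw1, hw2, hw3⟩ := key
    refine ⟨E Q (f 0) w, h2 ⟨w, hw2, rfl⟩, ?_⟩
    rw [E_apply hs.h1.2.1 hw2]
    simp only [QuadraticMap.polar_sub_right, QuadraticMap.polar_add_right, QuadraticMap.polar_smul_right, hev, hw1,
      hs.h1.2.2, smul_eq_mul, mul_one, mul_zero, zero_add, zero_sub]
    intro h
    apply hw3
    linear_combination -h
  have step2 : ∀ v, Q v = 0 → B (e 0) v ≠ 0 → ∃ g ∈ K, g.1.1 v = B (e 0) v • f 0 := by
    intro v hqv hb
    obtain ⟨b, hbd⟩ : ∃ b, b = B (e 0) v := ⟨_, rfl⟩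
    rw [← hbd] at hb ⊢
    obtain ⟨w, hw⟩ : ∃ w, w = v - B (f 0) v • e 0 - b • f 0 := ⟨_, rfl⟩
    have hwe : B (e 0) w = 0 := by
      rw [hw]
      simp only [QuadraticMap.polar_sub_right, QuadraticMap.polar_smul_right, hs.h1.ee, hs.h1.2.2, ← hbd, smul_eq_mul]; ring
    have h0 : B (e 0) (-(b⁻¹) • w) = 0 := by rw [QuadraticMap.polar_smul_right, hwe, smul_zero]
    refine ⟨E Q (e 0) (-(b⁻¹) • w), h1 ⟨_, h0, rfl⟩, ?_⟩
    have hform : ∃ a : F, (E Q (e 0) (-(b⁻¹) • w)).1.1 v = a • e 0 + b • f 0 := by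
      refine ⟨B (f 0) v - B (-(b⁻¹) • w) v - Q (-(b⁻¹) • w) * b, ?_⟩
      rw [E_apply hs.h1.1 h0, ← hbd, smul_smul]
      have h1 : v = B (f 0) v • e 0 + b • f 0 + w := by rw [hw]; abel
      have h2 : b * -b⁻¹ = -1 := by field_simp
      rw [h2]
      generalize B (-(b⁻¹) • w) v = s
      generalize Q (-(b⁻¹) • w) = t
      generalize B (f 0) v = r at h1 ⊢
      rw [h1]
      module
    obtain ⟨a, ha⟩ := hform
    have h3 := g_Q (E Q (e 0) (-(b⁻¹) • w)) v
    rw [ha, hs.h1.q, hqv] at h3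
    rw [ha, (mul_eq_zero.1 h3).resolve_right hb, zero_smul, zero_add]
  have step3 : ∀ v (hv : Q v = 0), v ≠ 0 → QV Q v hv ≤ K := by
    intro v hv hv0 x hx
    obtain ⟨g, hg, hgv⟩ := step1 v hv0
    obtain ⟨k, hk, hkv⟩ := step2 (g.1.1 v) (by rw [g_Q]; exact hv) hgv
    have hq : Q ((k * g).1.1 v) = 0 := by rw [g_Q]; exact hv
    have h3 : (k * g) * x * (k * g)⁻¹ ∈ QV Q ((k * g).1.1 v) hq := by
      rw [← map_QV (k * g) hv hq]
      exact ⟨x, hx, rfl⟩
    have h4 : (k * g).1.1 v = B (e 0) (g.1.1 v) • f 0 := by rw [mul_app, hkv]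
    have h5 : QV Q ((k * g).1.1 v) hq = QV Q (f 0) (h.fr.qf 0) := by
      simp only [h4]
      exact QV_smul (h.fr.qf 0) hgv _
    rw [h5] at h3
    have h6 : x = (k * g)⁻¹ * ((k * g) * x * (k * g)⁻¹) * (k * g) := by group
    rw [h6]
    exact K.mul_mem (K.mul_mem (K.inv_mem (K.mul_mem hk hg)) (h2 h3)) (K.mul_mem hk hg)
  rw [eq_top_iff]
  rintro ⟨x, hx⟩ -
  have main : ∀ (x : OGrp Q), x ∈ Subgroup.closure {g | ∃ v w, ∃ (hv : Q v = 0) (hw : QuadraticMap.polar Q v w = 0), g = oEich Q v w hv hw} →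
      ∃ hx : x ∈ EG Q, (⟨x, hx⟩ : EG Q) ∈ K := by
    intro x hx'
    induction hx' using Subgroup.closure_induction with
    | mem x hx =>
      obtain ⟨v, w, hv, hw, rfl⟩ := hx
      refine ⟨oEich_mem v w hv hw, ?_⟩
      rw [← E_def hv hw]
      by_cases hv0 : v = 0
      · have : E Q v w = 1 := by
          apply g_ext
          intro y
          rw [E_apply hv hw, hv0, one_app]; simp
        rw [this]; exact one_mem _
      · exact step3 v hv hv0 ⟨w, hw, rfl⟩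
    | one => exact ⟨one_mem _, K.one_mem⟩
    | mul x y _ _ hx hy =>
      obtain ⟨h1, h1'⟩ := hx
      obtain ⟨h2, h2'⟩ := hy
      exact ⟨mul_mem h1 h2, K.mul_mem h1' h2'⟩
    | inv x _ hx =>
      obtain ⟨h1, h1'⟩ := hx
      exact ⟨inv_mem h1, K.inv_mem h1'⟩
  obtain ⟨_, hm⟩ := main x hx
  exact hm

/-- an Eichler element in a line root group -/
theorem mem_line (hQ : (QuadraticMap.polarBilin Q).Nondegenerate) {v w : V} (hv0 : v ≠ 0) (hv : Q v = 0) (hw : B v w = 0)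
    (hi : ∀ c : F, w ≠ c • v) {L : Submodule F V} (hL : TL Q L) (hm : E Q v w ∈ R Q L) : v ∈ L ∧ w ∈ L := by
  obtain ⟨x, hx1, hx2⟩ := dual_pair hQ hi
  have h1 := hm x
  rw [E_apply hv hw, hx1, hx2] at h1
  have hvL : v ∈ L := by
    rw [← L.neg_mem_iff]
    convert h1 using 1
    module
  obtain ⟨y, hy1, hy2⟩ := dual_pair hQ (ind_symm hv0 hi)
  have h2 := hm y
  rw [E_apply hv hw, hy1, hy2] at h2
  refine ⟨hvL, ?_⟩
  have h3 : w = (y + (1 : F) • w - (0 : F) • v - (Q w * 1) • v - y) + (Q w) • v := by module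
  rw [h3]
  exact L.add_mem h2 (L.smul_mem _ hvL)

theorem E_injW (hQ : (QuadraticMap.polarBilin Q).Nondegenerate) {x y w w' : V} (h : HP Q x y) (hw : InW Q x y w) (hw' : InW Q x y w')
    (hE : E Q x w = E Q x w') : w = w' := by
  obtain ⟨c, hc⟩ := E_inj hQ h.ne h.1 hw.1 hw'.1 hE
  have h1 := hw'.2
  rw [hc, QuadraticMap.polar_add_right, QuadraticMap.polar_smul_right, hw.2, h.fe, zero_add, smul_eq_mul, mul_one] at h1
  rw [hc, h1, zero_smul, add_zero]

theorem adjW {x y w : V} (h : HP Q x y) (hw : B x w = 0) : InW Q x y (w - B y w • x) ∧ E Q x (w - B y w • x) = E Q x w := by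
  refine ⟨⟨?_, ?_⟩, ?_⟩
  · rw [QuadraticMap.polar_sub_right, QuadraticMap.polar_smul_right, hw, h.ee, smul_zero, sub_zero]
  · rw [QuadraticMap.polar_sub_right, QuadraticMap.polar_smul_right, h.fe, smul_eq_mul, mul_one, sub_self]
  · rw [sub_eq_add_neg, ← neg_smul, E_add_self h.1 hw]

theorem InW.ind {x y w : V} (h : HP Q x y) (hw : InW Q x y w) (hw0 : w ≠ 0) : ∀ c : F, w ≠ c • x := by
  rintro c rfl
  have h1 := hw.2
  rw [QuadraticMap.polar_smul_right, h.fe, smul_eq_mul, mul_one] at h1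
  exact hw0 (by rw [h1, zero_smul])

theorem InW.tl {x y w : V} (h : HP Q x y) (hw : InW Q x y w) (hq : Q w = 0) (hw0 : w ≠ 0) : TL Q (Submodule.span F {x, w}) :=
  TL.span h.1 hq hw.1 h.ne (hw.ind h hw0)

/-- the additive map on `W` -/
theorem Good.exists_phi [Finite F] (h : Good Q e f u) (α : PG Q ≃* PG Q) {x y : V} (hxy : HP Q x y) (hc : Cd Q α x x) :
    ∃ φ : V → V, ∀ w, InW Q x y w → InW Q x y (φ w) ∧ α (pi Q (E Q x w)) = pi Q (E Q x (φ w)) := by
  have hex : ∀ w, ∃ w', InW Q x y w → InW Q x y w' ∧ α (pi Q (E Q x w)) = pi Q (E Q x w') := by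
    intro w
    by_cases hw : InW Q x y w
    · obtain ⟨hx, _, hm⟩ := hc
      have h1 : α (pi Q (E Q x w)) ∈ (QV Q x hx).map (pi Q) := by
        rw [← hm]
        exact ⟨_, ⟨_, ⟨w, hw.1, rfl⟩, rfl⟩, rfl⟩
      obtain ⟨_, ⟨w1, hw1, rfl⟩, h2⟩ := h1
      obtain ⟨h3, h4⟩ := adjW hxy hw1
      exact ⟨_, fun _ => ⟨h3, by rw [h4, h2]⟩⟩
    · exact ⟨0, fun h => absurd h hw⟩
  choose φ hφ using hex
  exact ⟨φ, hφ⟩

theorem Good.E_eq [Finite F] (h : Good Q e f u) {x y w w' : V} (hxy : HP Q x y) (hw : InW Q x y w) (hw' : InW Q x y w')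
    (he : pi Q (E Q x w) = pi Q (E Q x w')) : w = w' := by
  obtain ⟨p, hp⟩ := CharP.exists F
  haveI : Fact p.Prime := ⟨CharP.char_is_prime F p⟩
  exact E_injW h.nd hxy hw hw' (h.pi_inj (p := p) 1 (by rw [pow_one]; exact E_pow_p hxy.1 hw.1) (by rw [pow_one]; exact E_pow_p hxy.1 hw'.1) he)

section phi
variable (h : Good Q e f u) (α : PG Q ≃* PG Q) {x y : V} (hxy : HP Q x y) (hc : Cd Q α x x) (φ : V → V)
  (hφ : ∀ w, InW Q x y w → InW Q x y (φ w) ∧ α (pi Q (E Q x w)) = pi Q (E Q x (φ w)))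
include h hxy hφ

theorem Good.phi_add [Finite F] (w w' : V) (hw : InW Q x y w) (hw' : InW Q x y w') : φ (w + w') = φ w + φ w' := by
  apply h.E_eq hxy (hφ _ (hw.add hw')).1 ((hφ _ hw).1.add (hφ _ hw').1)
  rw [← (hφ _ (hw.add hw')).2, ← E_mul hxy.1 hw.1 hw'.1, ← E_mul hxy.1 (hφ _ hw).1.1 (hφ _ hw').1.1, map_mul, map_mul, map_mul,
    (hφ _ hw).2, (hφ _ hw').2]

theorem Good.phi_zero [Finite F] : φ 0 = 0 := by
  have := h.phi_add α hxy φ hφ 0 0 (InW.zero _ _) (InW.zero _ _)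
  rw [add_zero] at this
  exact left_eq_add.mp this

theorem Good.phi_inj [Finite F] (w w' : V) (hw : InW Q x y w) (hw' : InW Q x y w') (he : φ w = φ w') : w = w' := by
  apply h.E_eq hxy hw hw'
  apply α.injective
  rw [(hφ _ hw).2, (hφ _ hw').2, he]

theorem Good.phi_ne [Finite F] (w : V) (hw : InW Q x y w) (hw0 : w ≠ 0) : φ w ≠ 0 := by
  intro h0
  apply hw0
  apply h.phi_inj α hxy φ hφ w 0 hw (InW.zero _ _)
  rw [h0, h.phi_zero α hxy φ hφ]

/-- image of the line -/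
theorem Good.phi_line [Finite F] (w : V) (hw : InW Q x y w) (hq : Q w = 0) (hw0 : w ≠ 0) :
    lm Q α (Submodule.span F {x, w}) = Submodule.span F {x, φ w} ∧ Q (φ w) = 0 := by
  obtain ⟨p, hp⟩ := CharP.exists F
  haveI : Fact p.Prime := ⟨CharP.char_is_prime F p⟩
  have hT := hw.tl hxy hq hw0
  obtain ⟨a', ha', haa'⟩ := h.lm_img α hT (E_mem_R hT (v := x) (u := w) (Submodule.subset_span (by simp)) (Submodule.subset_span (by simp)))
  have hT' := (h.lm_spec α hT).1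
  rw [(hφ _ hw).2] at haa'
  have h1 : E Q x (φ w) = a' := h.pi_inj (p := p) 1 (by rw [pow_one]; exact E_pow_p hxy.1 (hφ _ hw).1.1) (by rw [pow_one]; exact R_pow h.nd hT' ha') haa'
  rw [← h1] at ha'
  have hφ0 := h.phi_ne α hxy φ hφ w hw hw0
  obtain ⟨m1, m2⟩ := mem_line h.nd hxy.ne hxy.1 (hφ _ hw).1.1 ((hφ _ hw).1.ind hxy hφ0) hT' ha'
  exact ⟨hT'.eq_span m1 m2 hxy.ne ((hφ _ hw).1.ind hxy hφ0), hT'.sing _ m2⟩

theorem Good.phi_semilin [Finite F] (hc : Cd Q α x x) (hx : x = e 0) (hy : y = f 0) :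
    ∃ σ : F ≃+* F, ∃ c0 : F, c0 ≠ 0 ∧ (∀ (c : F) w, InW Q (e 0) (f 0) w → φ (c • w) = σ c • φ w) ∧
      ∀ w, InW Q (e 0) (f 0) w → Q (φ w) = c0 * σ (Q w) := by
  subst hx hy
  have hz := h.phi_zero α hxy φ hφ
  refine semilin h.fr φ (fun w hw => (hφ w hw).1) (h.phi_add α hxy φ hφ) (fun w hw h0 => ?_) (fun w hw => ?_) (fun w hw hq => ?_)
    (fun w c hw hq => ?_) (fun w w' hw hw' hq hq' hw0 hp => ?_)
  · by_contra hne
    exact h.phi_ne α hxy φ hφ w hw hne h0
  · obtain ⟨hx, _, hm⟩ := hc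
    have h1 : pi Q (E Q (e 0) w) ∈ ((QV Q (e 0) hx).map (pi Q)).map α.toMonoidHom := by
      rw [hm]
      exact ⟨_, ⟨w, hw.1, rfl⟩, rfl⟩
    obtain ⟨_, ⟨_, ⟨w1, hw1, rfl⟩, rfl⟩, h2⟩ := h1
    obtain ⟨h3, h4⟩ := adjW hxy hw1
    refine ⟨_, h3, h.E_eq hxy (hφ _ h3).1 hw ?_⟩
    rw [← (hφ _ h3).2, h4]
    exact h2
  · by_cases hw0 : w = 0
    · rw [hw0, hz, QuadraticMap.map_zero]
    · exact (h.phi_line α hxy φ hφ w hw hq hw0).2
  · by_cases hw0 : w = 0
    · exact ⟨0, by rw [hw0, smul_zero, hz, smul_zero]⟩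
    by_cases hc0 : c = 0
    · exact ⟨0, by rw [hc0, zero_smul, hz, zero_smul]⟩
    have hcw : c • w ≠ 0 := smul_ne_zero hc0 hw0
    have e1 := (h.phi_line α hxy φ hφ w hw hq hw0).1
    have e2 := (h.phi_line α hxy φ hφ (c • w) (hw.smul c) (by rw [qsmul, hq, mul_zero]) hcw).1
    have e3 : Submodule.span F {e 0, c • w} = Submodule.span F {e 0, w} := by
      symm
      apply (hw.tl hxy hq hw0).eq_of_le ((hw.smul c).tl hxy (by rw [qsmul, hq, mul_zero]) hcw)
      rw [Submodule.span_le]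
      have hm1 : c • w ∈ Submodule.span F {e 0, c • w} := Submodule.subset_span (by simp)
      have hm2 := Submodule.smul_mem _ c⁻¹ hm1
      rw [smul_smul, inv_mul_cancel₀ hc0, one_smul] at hm2
      intro z hz
      rcases hz with hz | hz
      · rw [hz]; exact Submodule.subset_span (by simp)
      · rw [hz]; exact hm2
    rw [e3, e1] at e2
    have h5 : φ (c • w) ∈ Submodule.span F {e 0, φ w} := by rw [e2]; exact Submodule.subset_span (by simp)
    obtain ⟨a, b, hab⟩ := mem_span2 h5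
    have h6 := (hφ _ (hw.smul c)).1.2
    rw [hab, QuadraticMap.polar_add_right, QuadraticMap.polar_smul_right, QuadraticMap.polar_smul_right, (hφ _ hw).1.2, hxy.fe, smul_eq_mul,
      mul_one, smul_zero, add_zero] at h6
    exact ⟨b, by rw [hab, h6, zero_smul, zero_add]⟩
  · obtain ⟨c, hcc⟩ := hp
    by_cases hw0' : w' = 0
    · exact ⟨0, by rw [hw0', zero_smul]⟩
    have hφ0 := h.phi_ne α hxy φ hφ w' hw' hw0'
    have e1 := (h.phi_line α hxy φ hφ w hw hq hw0)
    have e2 := (h.phi_line α hxy φ hφ w' hw' hq' hw0')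
    have t1 := (hφ w hw).1.tl hxy e1.2 (h.phi_ne α hxy φ hφ w hw hw0)
    have t2 := (hφ w' hw').1.tl hxy e2.2 hφ0
    have e3 : lm Q α (Submodule.span F {e 0, w'}) = lm Q α (Submodule.span F {e 0, w}) := by
      rw [e1.1, e2.1]
      apply t2.eq_of_le t1
      rw [Submodule.span_le]
      rintro z (rfl | rfl)
      · exact Submodule.subset_span (by simp)
      · rw [hcc]
        exact Submodule.smul_mem _ _ (Submodule.subset_span (by simp))
    have e4 : Submodule.span F {e 0, w'} = Submodule.span F {e 0, w} := by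
      by_contra hne
      exact h.lm_ne α (hw'.tl hxy hq' hw0') (hw.tl hxy hq hw0) hne e3
    have h5 : w' ∈ Submodule.span F {e 0, w} := by rw [← e4]; exact Submodule.subset_span (by simp)
    obtain ⟨a, b, hab⟩ := mem_span2 h5
    have h6 := hw'.2
    rw [hab, QuadraticMap.polar_add_right, QuadraticMap.polar_smul_right, QuadraticMap.polar_smul_right, hw.2, hxy.fe, smul_eq_mul,
      mul_one, smul_zero, add_zero] at h6
    exact ⟨b, by rw [hab, h6, zero_smul, zero_add]⟩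

end phi

end

end CfsgLib.AutO27
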