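import Cfsg.Agent.LibAutO27j

set_option autoImplicit false

/-! Every automorphism of `EG / Z` is induced by a semisimilarity: the main theorem. -/

namespace CfsgLib.AutO27

open Cfsg.Agent.H22 CfsgLib.SylCen27 Module

variable {F V : Type*} [Field F] [AddCommGroup V] [Module F V] {Q : QuadraticForm F V}

local notation "B" => QuadraticMap.polar Q

variable {e f : Fin 3 → V} {u : V}

section
variable [FiniteDimensional F V] [Finite F]

/-- extension of a semilinear map of `W` to a semisimilarity -/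
theorem exists_SS (hQ : (QuadraticMap.polarBilin Q).Nondegenerate) {x y : V} (hxy : HP Q x y) (φ : V → V) (σ : F ≃+* F) (c0 : F) (hc0 : c0 ≠ 0)
    (hW : ∀ w, InW Q x y w → InW Q x y (φ w)) (hadd : ∀ w w', InW Q x y w → InW Q x y w' → φ (w + w') = φ w + φ w')
    (hsm : ∀ (c : F) w, InW Q x y w → φ (c • w) = σ c • φ w) (hq : ∀ w, InW Q x y w → Q (φ w) = c0 * σ (Q w)) :
    ∃ s : SS Q, s.c = c0 ∧ s.σ = σ ∧ s.S x = c0 • x ∧ s.S y = y ∧ ∀ w, InW Q x y w → s.S w = φ w := by
  haveI : Finite V := Module.finite_of_finite F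
  have hpW : ∀ z, InW Q x y (pr Q x y z) := fun z => ⟨pr_left hxy z, pr_right hxy z⟩
  have hpadd : ∀ z z', pr Q x y (z + z') = pr Q x y z + pr Q x y z' := by
    intro z z'
    unfold pr
    rw [QuadraticMap.polar_add_right, QuadraticMap.polar_add_right]; module
  have hpsm : ∀ (c : F) z, pr Q x y (c • z) = c • pr Q x y z := by
    intro c z
    unfold pr
    rw [QuadraticMap.polar_smul_right, QuadraticMap.polar_smul_right, smul_eq_mul, smul_eq_mul]; module
  have hpw : ∀ w, InW Q x y w → pr Q x y w = w := by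
    intro w hw
    unfold pr
    rw [hw.1, hw.2, zero_smul, zero_smul, sub_zero, sub_zero]
  have hdec : ∀ z, z = B y z • x + B x z • y + pr Q x y z := by
    intro z; unfold pr; abel
  let S0 : V → V := fun z => (c0 * σ (B y z)) • x + σ (B x z) • y + φ (pr Q x y z)
  have hS0add : ∀ z z', S0 (z + z') = S0 z + S0 z' := by
    intro z z'
    show (c0 * σ (B y (z + z'))) • x + σ (B x (z + z')) • y + φ (pr Q x y (z + z')) = _
    rw [QuadraticMap.polar_add_right, QuadraticMap.polar_add_right, hpadd, hadd _ _ (hpW z) (hpW z'), map_add, map_add]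
    show _ = (c0 * σ (B y z)) • x + σ (B x z) • y + φ (pr Q x y z) + ((c0 * σ (B y z')) • x + σ (B x z') • y + φ (pr Q x y z'))
    module
  have hS0sm : ∀ (a : F) z, S0 (a • z) = σ a • S0 z := by
    intro a z
    show (c0 * σ (B y (a • z))) • x + σ (B x (a • z)) • y + φ (pr Q x y (a • z)) = σ a • ((c0 * σ (B y z)) • x + σ (B x z) • y + φ (pr Q x y z))
    rw [QuadraticMap.polar_smul_right, QuadraticMap.polar_smul_right, hpsm, hsm _ _ (hpW z), smul_eq_mul, smul_eq_mul, map_mul, map_mul]
    module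
  have hQdec : ∀ (a b : F) w, InW Q x y w → Q (a • x + b • y + w) = a * b + Q w := by
    intro a b w hw
    rw [qadd, hxy.q, QuadraticMap.polar_add_left, QuadraticMap.polar_smul_left, QuadraticMap.polar_smul_left, hw.1, hw.2]; simp
  have hS0q : ∀ z, Q (S0 z) = c0 * σ (Q z) := by
    intro z
    show Q ((c0 * σ (B y z)) • x + σ (B x z) • y + φ (pr Q x y z)) = _
    rw [hQdec _ _ _ (hW _ (hpW z)), hq _ (hpW z)]
    conv_rhs => rw [hdec z, hQdec _ _ _ (hpW z)]
    rw [map_add, map_mul]; ring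
  have hS0B : ∀ z z', B (S0 z) (S0 z') = c0 * σ (B z z') := by
    intro z z'
    unfold QuadraticMap.polar
    rw [← hS0add, hS0q, hS0q, hS0q, map_sub, map_sub]; ring
  have hinj : Function.Injective S0 := by
    intro z z' hzz
    have h1 : S0 (z - z') = 0 := by
      have h2 := hS0add (z - z') z'
      rw [sub_add_cancel, hzz] at h2
      exact (add_eq_right.1 h2.symm)
    rw [← sub_eq_zero]
    apply hQ.1
    intro w
    show B (z - z') w = 0
    have h3 := hS0B (z - z') w
    rw [h1, QuadraticMap.polar_zero_left] at h3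
    have h4 := (mul_eq_zero.1 h3.symm).resolve_left hc0
    exact (map_eq_zero_iff _ σ.injective).1 h4
  let S : V ≃+ V := AddEquiv.ofBijective ({ toFun := S0, map_zero' := by
                                              have := hS0add 0 0
                                              rw [add_zero] at this
                                              exact left_eq_add.mp this
                                            map_add' := hS0add } : V →+ V) (Finite.injective_iff_bijective.1 hinj)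
  have hφ0 : φ 0 = 0 := by
    have := hadd 0 0 (InW.zero _ _) (InW.zero _ _)
    rw [add_zero] at this
    exact left_eq_add.mp this
  refine ⟨{ S := S, σ := σ, c := c0, c0 := hc0, smul := hS0sm, q := hS0q }, rfl, rfl, ?_, ?_, ?_⟩
  · show (c0 * σ (B y x)) • x + σ (B x x) • y + φ (pr Q x y x) = c0 • x
    have h1 : pr Q x y x = 0 := by
      unfold pr
      rw [hxy.fe, hxy.ee]; simp
    rw [h1, hφ0, hxy.fe, hxy.ee, map_one, map_zero]; simp
  · show (c0 * σ (B y y)) • x + σ (B x y) • y + φ (pr Q x y y) = y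
    have h1 : pr Q x y y = 0 := by
      unfold pr
      rw [hxy.ff, hxy.2.2]; simp
    rw [h1, hφ0, hxy.ff, hxy.2.2, map_one, map_zero]; simp
  · intro w hw
    show (c0 * σ (B y w)) • x + σ (B x w) • y + φ (pr Q x y w) = φ w
    rw [hw.1, hw.2, hpw w hw]; simp

/-- an automorphism fixing one root group and normalizing the opposite one is trivial -/
theorem Good.eq_one (h : Good Q e f u) (β : PG Q ≃* PG Q) (h1 : ∀ w, B (e 0) w = 0 → β (pi Q (E Q (e 0) w)) = pi Q (E Q (e 0) w))
    (h2 : Cd Q β (f 0) (f 0)) (x : PG Q) : β x = x := by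
  obtain ⟨p, hp⟩ := CharP.exists F
  haveI : Fact p.Prime := ⟨CharP.char_is_prime F p⟩
  have hxy := h.hs.h1
  have hyx := hxy.symm
  obtain ⟨ψ, hψ⟩ := h.exists_phi β hyx h2
  -- `ψ w` is a multiple of `w`
  have hmul : ∀ w, InW Q (f 0) (e 0) w → Q w = 0 → w ≠ 0 → ∃ c : F, c ≠ 0 ∧ ψ w = c • w := by
    intro w hw hq hw0
    have hw' : InW Q (e 0) (f 0) w := ⟨hw.2, hw.1⟩
    obtain ⟨l1, l2⟩ := h.phi_line β hyx ψ hψ w hw hq hw0
    have hψ0 := h.phi_ne β hyx ψ hψ w hw hw0
    have T1 := hw.tl hyx hq hw0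
    have T2 := hw'.tl hxy hq hw0
    have T3 := (hψ w hw).1.tl hyx l2 hψ0
    have hfix : lm Q β (Submodule.span F {e 0, w}) = Submodule.span F {e 0, w} := by
      apply h.img_inj (h.lm_spec β T2).1 T2
      rw [← (h.lm_spec β T2).2, Set.image_image]
      apply Set.image_congr
      intro a ha
      obtain ⟨b, rfl⟩ := (R_mem_iff h.nd T2 (v := e 0) (u := w) (Submodule.subset_span (by simp)) (Submodule.subset_span (by simp)) hxy.ne
        (hw'.ind hxy hw0) a).1 ha
      exact h1 _ (by rw [QuadraticMap.polar_smul_right, hw'.1, smul_zero])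
    have hcm : Cm Q (Submodule.span F {e 0, w}) (Submodule.span F {f 0, w}) :=
      cm_of_common h.nd T2 T1 (v := w) (Submodule.subset_span (by simp)) (Submodule.subset_span (by simp)) hw0
    have hcm2 := h.lm_cm β T2 T1 hcm
    rw [hfix, l1] at hcm2
    rcases (cm_iff h.nd T2 T3).1 hcm2 with hp | ⟨x, hx1, hx2, hx0⟩
    · have := hp (e 0) (Submodule.subset_span (by simp)) (f 0) (Submodule.subset_span (by simp))
      rw [hxy.2.2] at this
      exact absurd this one_ne_zero
    · obtain ⟨a, b, hab⟩ := mem_span2 hx1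
      obtain ⟨c, d, hcd⟩ := mem_span2 hx2
      have hfx : a = 0 := by
        have e1 : B (f 0) x = a := by
          rw [hab, QuadraticMap.polar_add_right, QuadraticMap.polar_smul_right, QuadraticMap.polar_smul_right, hxy.fe, hw.1, smul_eq_mul]; simp
        have e2 : B (f 0) x = 0 := by
          rw [hcd, QuadraticMap.polar_add_right, QuadraticMap.polar_smul_right, QuadraticMap.polar_smul_right, hxy.ff, (hψ w hw).1.1]; simp
        rw [← e1, e2]
      have hex : c = 0 := by
        have e1 : B (e 0) x = 0 := by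
          rw [hab, QuadraticMap.polar_add_right, QuadraticMap.polar_smul_right, QuadraticMap.polar_smul_right, hxy.ee, hw.2]; simp
        have e2 : B (e 0) x = c := by
          rw [hcd, QuadraticMap.polar_add_right, QuadraticMap.polar_smul_right, QuadraticMap.polar_smul_right, hxy.2.2, (hψ w hw).1.2, smul_eq_mul]; simp
        rw [← e1, e2]
      rw [hfx, zero_smul, zero_add] at hab
      rw [hex, zero_smul, zero_add] at hcd
      have hb : b ≠ 0 := by rintro rfl; exact hx0 (by rw [hab, zero_smul])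
      have hd : d ≠ 0 := by rintro rfl; exact hx0 (by rw [hcd, zero_smul])
      refine ⟨d⁻¹ * b, mul_ne_zero (inv_ne_zero hd) hb, ?_⟩
      rw [mul_smul, ← hab, hcd, smul_smul, inv_mul_cancel₀ hd, one_smul]
  -- in fact `ψ w = w`
  have hfixf : ∀ w, InW Q (f 0) (e 0) w → Q w = 0 → w ≠ 0 → ψ w = w := by
    intro w' hw' hq' hw0'
    obtain ⟨c, hc, hψc⟩ := hmul w' hw' hq' hw0'
    obtain ⟨w, hww, hew, hfw⟩ := exists_partner2 h.nd hxy hw0' hq' (by rw [bsymm]; exact hw'.2) (by rw [bsymm]; exact hw'.1)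
    have hqw : Q w = 0 := hww.2.1
    have hBww : B w w' = 1 := hww.fe
    -- action formulas
    have aE : ∀ z, (E Q (e 0) w).1.1 z = z + B (e 0) z • w - B w z • e 0 := by
      intro z
      rw [E_apply hxy.1 hew, hqw]; module
    have aF : ∀ (μ : F) z, (E Q (f 0) (μ • w')).1.1 z = z + μ • (B (f 0) z • w' - B w' z • f 0) := by
      intro μ z
      rw [E_apply hxy.2.1 (by rw [QuadraticMap.polar_smul_right, hw'.1, smul_zero]), qsmul, hq', QuadraticMap.polar_smul_left, smul_eq_mul]
      module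
    have b1 : B w (e 0) = 0 := by rw [bsymm]; exact hew
    have b2 : B w (f 0) = 0 := by rw [bsymm]; exact hfw
    have b3 : B w' (e 0) = 0 := by rw [bsymm]; exact hw'.2
    have b4 : B w' (f 0) = 0 := by rw [bsymm]; exact hw'.1
    have b5 : B w w = 0 := bself hqw
    have b6 : B w' w' = 0 := bself hq'
    have b7 : B w' w = 1 := hww.2.2
    obtain ⟨n, hn⟩ : ∃ n : F → EG Q, ∀ μ, n μ = E Q (e 0) w * E Q (f 0) (μ • w') * E Q (e 0) w := ⟨_, fun _ => rfl⟩
    have ne : ∀ μ, (n μ).1.1 (e 0) = (1 - μ) • e 0 + μ • w' := by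
      intro μ
      have s1 : (E Q (e 0) w).1.1 (e 0) = e 0 := by rw [aE, hxy.ee, b1]; module
      have s2 : (E Q (f 0) (μ • w')).1.1 (e 0) = e 0 + μ • w' := by rw [aF, hxy.fe, b3]; module
      rw [hn, mul_app, mul_app, s1, s2, aE]
      simp only [QuadraticMap.polar_add_right, QuadraticMap.polar_smul_right, hxy.ee, hw'.2, b1, hBww, smul_eq_mul]
      module
    have nw : ∀ μ, (n μ).1.1 w = (1 - μ) • w - μ • f 0 := by
      intro μ
      have s1 : (E Q (e 0) w).1.1 w = w := by rw [aE, hew, b5]; module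
      have s2 : (E Q (f 0) (μ • w')).1.1 w = w - μ • f 0 := by rw [aF, hfw, b7]; module
      rw [hn, mul_app, mul_app, s1, s2, aE]
      simp only [QuadraticMap.polar_sub_right, QuadraticMap.polar_smul_right, hew, b5, hxy.2.2, b2, smul_eq_mul]
      module
    have hconj1 : n 1 * E Q (e 0) w * (n 1)⁻¹ = E Q (f 0) w' := by
      rw [E_conj, ne, nw, sub_self, zero_smul, zero_smul, one_smul, one_smul, zero_add, zero_sub]
      exact (E_swap hxy.2.1 hq' hw'.1).symm
    have hβf : β (pi Q (E Q (f 0) w')) = pi Q (E Q (f 0) (c • w')) := by rw [(hψ w' hw').2, hψc]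
    have hβe : β (pi Q (E Q (e 0) w)) = pi Q (E Q (e 0) w) := h1 w hew
    have hβn : β (pi Q (n 1)) = pi Q (n c) := by
      rw [hn, hn, one_smul, map_mul, map_mul, map_mul, map_mul, hβe, hβf, map_mul, map_mul]
    have h3 : pi Q (n c * E Q (e 0) w * (n c)⁻¹) = pi Q (E Q (f 0) (c • w')) := by
      rw [map_mul, map_mul, map_inv, ← hβn, ← hβe, ← hβf, ← hconj1, map_mul (pi Q), map_mul (pi Q), map_inv (pi Q), map_mul β, map_mul β, map_inv β]
    have h4 : n c * E Q (e 0) w * (n c)⁻¹ = E Q (f 0) (c • w') := by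
      refine h.pi_inj (p := p) 1 ?_ ?_ h3
      · rw [pow_one, conj_pow, E_pow_p hxy.1 hew, mul_one, mul_inv_cancel]
      · rw [pow_one]
        exact E_pow_p hxy.2.1 (by rw [QuadraticMap.polar_smul_right, hw'.1, smul_zero])
    rw [E_conj, ne, nw] at h4
    have h5 : B w ((E Q ((1 - c) • e 0 + c • w') ((1 - c) • w - c • f 0)).1.1 (e 0)) = B w ((E Q (f 0) (c • w')).1.1 (e 0)) := by rw [h4]
    have hq1 : Q ((1 - c) • e 0 + c • w') = 0 := by
      rw [qadd, qsmul, qsmul, hxy.1, hq', QuadraticMap.polar_smul_left, QuadraticMap.polar_smul_right, hw'.2]; simp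
    have hp1 : B ((1 - c) • e 0 + c • w') ((1 - c) • w - c • f 0) = 0 := by
      simp only [QuadraticMap.polar_add_left, QuadraticMap.polar_sub_right, QuadraticMap.polar_smul_left, QuadraticMap.polar_smul_right, hew,
        hxy.2.2, b7, b4, smul_eq_mul]
      ring
    have hq2 : Q ((1 - c) • w - c • f 0) = 0 := by
      rw [qsub, qsmul, qsmul, hqw, hxy.2.1, QuadraticMap.polar_smul_left, QuadraticMap.polar_smul_right, b2]; simp
    rw [E_apply hq1 hp1, hq2, aF] at h5
    simp only [QuadraticMap.polar_add_left, QuadraticMap.polar_sub_left, QuadraticMap.polar_add_right, QuadraticMap.polar_sub_right,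
      QuadraticMap.polar_smul_left, QuadraticMap.polar_smul_right, hxy.ee, hxy.fe, b1, b2, b3, b5, hBww, smul_eq_mul] at h5
    have h6 : c * (c - 1) = 0 := by linear_combination h5
    have h7 : c = 1 := by
      rcases mul_eq_zero.1 h6 with h | h
      · exact absurd h hc
      · exact sub_eq_zero.1 h
    rw [hψc, h7, one_smul]
  -- conclusion
  let K : Subgroup (EG Q) := (MonoidHom.eqLocus β.toMonoidHom (MonoidHom.id (PG Q))).comap (pi Q)
  have hK : ∀ g, g ∈ K ↔ β (pi Q g) = pi Q g := fun g => Iff.rfl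
  have htop : K = ⊤ := by
    apply h.gen K
    · rintro _ ⟨w, hw, rfl⟩
      exact h1 w hw
    · apply h.QV_le hyx.ne hyx.1
      intro L hL hfL g hg
      obtain ⟨z, hz, hind⟩ := hL.exists_other hyx.ne
      obtain ⟨b, rfl⟩ := (R_mem_iff h.nd hL hfL hz hyx.ne hind g).1 hg
      have hfz : B (f 0) (b • z) = 0 := hL.polar hfL (L.smul_mem _ hz)
      obtain ⟨h3, h4⟩ := adjW hyx hfz
      rw [hK, ← h4]
      by_cases hz0 : b • z - B (e 0) (b • z) • f 0 = 0
      · rw [hz0, E_zero, map_one, map_one]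
      · have hq : Q (b • z - B (e 0) (b • z) • f 0) = 0 := hL.sing _ (L.sub_mem (L.smul_mem _ hz) (L.smul_mem _ hfL))
        rw [(hψ _ h3).2, hfixf _ h3 hq hz0]
  obtain ⟨g, rfl⟩ := QuotientGroup.mk'_surjective (Subgroup.center (EG Q)) x
  have : g ∈ K := by rw [htop]; trivial
  exact (hK g).1 this

/-- **Main theorem**: every automorphism of `PΩ` is induced by a semisimilarity. -/
theorem Good.main (h : Good Q e f u) (α : PG Q ≃* PG Q) : ∃ s : SS Q, α = s.autP := by
  obtain ⟨k, hk1, hk2⟩ := h.normalize α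
  obtain ⟨α', hα'⟩ : ∃ α', α' = α.trans (MulAut.conj (pi Q k)) := ⟨_, rfl⟩
  rw [← hα'] at hk1 hk2
  have hxy := h.hs.h1
  obtain ⟨φ, hφ⟩ := h.exists_phi α' hxy hk1
  obtain ⟨σ, c0, hc0, hsm, hq⟩ := h.phi_semilin α' hxy φ hφ hk1 rfl rfl
  obtain ⟨s, hsc, hsσ, hsx, hsy, hsW⟩ := exists_SS h.nd hxy φ σ c0 hc0 (fun w hw => (hφ w hw).1) (h.phi_add α' hxy φ hφ) hsm hq
  have hβ : ∀ x, (α'.trans s.autP.symm) x = x := by
    apply h.eq_one
    · intro w hw
      obtain ⟨h1, h2⟩ := adjW hxy hw
      rw [← h2]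
      obtain ⟨w1, hw1⟩ : ∃ w1, w1 = w - B (f 0) w • e 0 := ⟨_, rfl⟩
      rw [← hw1] at h1 ⊢
      show s.autP.symm (α' _) = _
      rw [(hφ _ h1).2, MulEquiv.symm_apply_eq, s.autP_pi, s.aut_E _ _ hxy.1 h1.1, hsx, hsW _ h1, hsc,
        E_smul_left hxy.1 (by rw [QuadraticMap.polar_smul_right, (hφ _ h1).1.1, smul_zero]), smul_smul, mul_inv_cancel₀ hc0, one_smul]
    · obtain ⟨hf, hf', hm⟩ := hk2
      refine ⟨hf, hf, ?_⟩
      have e1 : ((QV Q (f 0) hf).map (pi Q)).map (α'.trans s.autP.symm).toMonoidHom =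
          (((QV Q (f 0) hf).map (pi Q)).map α'.toMonoidHom).map s.autP.symm.toMonoidHom := by
        rw [Subgroup.map_map (G := PG Q)]
        rfl
      have e2 : ((QV Q (f 0) hf).map (pi Q)).map s.autP.toMonoidHom = (QV Q (f 0) hf).map (pi Q) := by
        ext z
        constructor
        · rintro ⟨_, ⟨_, ⟨w, hw, rfl⟩, rfl⟩, rfl⟩
          refine ⟨E Q (f 0) (s.c⁻¹ • s.S w), ⟨_, ?_, rfl⟩, ?_⟩
          · rw [QuadraticMap.polar_smul_right]
            have := s.polar (f 0) w
            rw [hsy, hw, map_zero, mul_zero] at this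
            rw [this, smul_zero]
          · show _ = s.autP (pi Q (E Q (f 0) w))
            rw [s.autP_pi, s.aut_E _ _ hf hw, hsy]
        · rintro ⟨_, ⟨w, hw, rfl⟩, rfl⟩
          obtain ⟨w2, hw2⟩ := s.S.surjective (s.c • w)
          have hfw2 : B (f 0) w2 = 0 := by
            have := s.polar (f 0) w2
            rw [hsy, hw2, QuadraticMap.polar_smul_right, hw, smul_zero] at this
            exact (map_eq_zero_iff _ s.σ.injective).1 ((mul_eq_zero.1 this.symm).resolve_left s.c0)
          refine ⟨_, ⟨_, ⟨w2, hfw2, rfl⟩, rfl⟩, ?_⟩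
          show s.autP (pi Q (E Q (f 0) w2)) = _
          rw [s.autP_pi, s.aut_E _ _ hf hfw2, hsy, hw2, smul_smul, inv_mul_cancel₀ s.c0, one_smul]
      have e3 : (s.autP.symm.toMonoidHom.comp s.autP.toMonoidHom) = MonoidHom.id (PG Q) := by
        ext z
        show s.autP.symm (s.autP z) = z
        simp
      calc ((QV Q (f 0) hf).map (pi Q)).map (α'.trans s.autP.symm).toMonoidHom
          = ((QV Q (f 0) hf).map (pi Q)).map s.autP.symm.toMonoidHom := by rw [e1, hm]
        _ = (((QV Q (f 0) hf).map (pi Q)).map s.autP.toMonoidHom).map s.autP.symm.toMonoidHom := by rw [e2]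
        _ = _ := by rw [Subgroup.map_map (G := PG Q), e3, Subgroup.map_id]
  refine ⟨s.compG k⁻¹, ?_⟩
  ext x
  obtain ⟨g, rfl⟩ := QuotientGroup.mk'_surjective (Subgroup.center (EG Q)) x
  have h1 : α' (pi Q g) = s.autP (pi Q g) := by
    have := hβ (pi Q g)
    have h2 : s.autP.symm (α' (pi Q g)) = pi Q g := this
    rwa [MulEquiv.symm_apply_eq] at h2
  have h2 : α' (pi Q g) = pi Q k * α (pi Q g) * (pi Q k)⁻¹ := by rw [hα']; rfl
  show α (pi Q g) = (s.compG k⁻¹).autP (pi Q g)
  rw [SS.autP_pi, s.aut_compG, map_mul, map_mul, ← s.autP_pi, ← h1, h2]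
  simp only [map_inv]
  group

end

end CfsgLib.AutO27
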