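import Mathlib

set_option autoImplicit false

/-! The fundamental theorem of projective geometry over finite fields, in coordinates. -/

namespace CfsgLib.FTPG27

open Matrix

section Sigma

variable {F : Type*} [Field F] {U V : Type*} [AddCommGroup U] [Module F U] [AddCommGroup V] [Module F V]

/-- parallel vectors -/
def Par (v w : V) : Prop := ∃ c : F, c ≠ 0 ∧ w = c • v

variable (F) in
/-- parallel vectors, field explicit -/
abbrev PF (v w : V) : Prop := Par (F := F) v w

theorem PF.refl (v : V) : PF F v v := ⟨1, one_ne_zero, (one_smul _ _).symm⟩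

theorem PF.symm {v w : V} (h : PF F v w) : PF F w v := by
  obtain ⟨c, hc, rfl⟩ := h
  exact ⟨c⁻¹, inv_ne_zero hc, by rw [smul_smul, inv_mul_cancel₀ hc, one_smul]⟩

theorem PF.trans {u v w : V} (h : PF F u v) (h' : PF F v w) : PF F u w := by
  obtain ⟨c, hc, rfl⟩ := h
  obtain ⟨d, hd, rfl⟩ := h'
  exact ⟨d * c, mul_ne_zero hd hc, by rw [smul_smul]⟩

theorem PF.smul {c : F} (hc : c ≠ 0) (v : V) : PF F v (c • v) := ⟨c, hc, rfl⟩

theorem exists_sigma [Finite F] {u0 u1 : U} (hu0' : u0 ≠ 0) (hu1' : u1 ≠ 0) (h01 : ¬ PF F u0 u1) (φ : U → V)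
    (hadd : ∀ u v, φ (u + v) = φ u + φ v) (hinj : ∀ w, φ w = 0 → w = 0)
    (hline : ∀ (w : U) (c : F), ∃ c' : F, φ (c • w) = c' • φ w)
    (hpar : ∀ w w', φ w ≠ 0 → PF F (φ w) (φ w') → PF F w w') :
    ∃ σ : F ≃+* F, ∀ (c : F) (w : U), φ (c • w) = σ c • φ w := by
  have h0 : φ 0 = 0 := by
    have := hadd 0 0
    rw [add_zero] at this
    exact left_eq_add.mp this
  choose l hl using hline
  have key : ∀ w w', w ≠ 0 → w' ≠ 0 → ¬ PF F w w' → ∀ c, l w c = l w' c := by
    intro w w' hw hw' hp c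
    have hφ : φ w ≠ 0 := fun h => hw (hinj _ h)
    have hφ' : φ w' ≠ 0 := fun h => hw' (hinj _ h)
    have e1 : φ (c • (w + w')) = l (w + w') c • (φ w + φ w') := by rw [hl, hadd]
    have e2 : φ (c • (w + w')) = l w c • φ w + l w' c • φ w' := by rw [smul_add, hadd, hl, hl]
    have e3 : (l (w + w') c - l w c) • φ w = (l w' c - l (w + w') c) • φ w' := by
      have : l (w + w') c • (φ w + φ w') = l w c • φ w + l w' c • φ w' := by rw [← e1, e2]
      rw [sub_smul, sub_smul, sub_eq_sub_iff_add_eq_add, ← smul_add, this, add_comm]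
    have hA : l (w + w') c - l w c = 0 := by
      by_contra hA
      have hB : l w' c - l (w + w') c ≠ 0 := by
        intro hB
        rw [hB, zero_smul] at e3
        exact (smul_ne_zero hA hφ) e3
      apply hp
      apply hpar _ _ hφ
      refine ⟨(l w' c - l (w + w') c)⁻¹ * (l (w + w') c - l w c), mul_ne_zero (inv_ne_zero hB) hA, ?_⟩
      rw [mul_smul, e3, smul_smul, inv_mul_cancel₀ hB, one_smul]
    rw [hA, zero_smul] at e3
    have hB := (smul_eq_zero.mp e3.symm).resolve_right hφ'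
    rw [sub_eq_zero] at hA hB
    rw [hB, hA]
  have hall : ∀ w, w ≠ 0 → ∀ c, l w c = l u0 c := by
    intro w hw c
    by_cases h : PF F w u0
    · have h1 : ¬ PF F w u1 := fun h' => h01 (h.symm.trans h')
      rw [key w u1 hw hu1' h1 c, key u0 u1 hu0' hu1' h01 c]
    · exact key w u0 hw hu0' h c
  have hs : ∀ (w : U) (c : F), φ (c • w) = l u0 c • φ w := by
    intro w c
    by_cases hw : w = 0
    · rw [hw, smul_zero, h0, smul_zero]
    · rw [hl, hall w hw]
  have hφ0 : φ u0 ≠ 0 := fun h => hu0' (hinj _ h)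
  have hsm : ∀ a b : F, a • φ u0 = b • φ u0 → a = b := fun a b h => smul_left_injective F hφ0 h
  let σ0 : F →+* F :=
    { toFun := l u0
      map_one' := by
        apply hsm
        rw [← hs, one_smul, one_smul]
      map_mul' := fun a b => by
        apply hsm
        rw [← hs, mul_smul, hs, hs, smul_smul]
      map_zero' := by
        apply hsm
        rw [← hs, zero_smul, h0, zero_smul]
      map_add' := fun a b => by
        apply hsm
        rw [← hs, add_smul, hadd, hs, hs, add_smul] }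
  exact ⟨RingEquiv.ofBijective σ0 (Finite.injective_iff_bijective.1 σ0.injective), fun c w => hs w c⟩

end Sigma

section FTPG

variable {F : Type*} [Field F] {ι : Type*} [Fintype ι] [DecidableEq ι]

/-- semilinear maps are given by matrices -/
theorem exists_matrix (σ : F ≃+* F) (Ψ : (ι → F) → (ι → F)) (hadd : ∀ u v, Ψ (u + v) = Ψ u + Ψ v)
    (hsm : ∀ (c : F) v, Ψ (c • v) = σ c • Ψ v) (hinj : ∀ v, Ψ v = 0 → v = 0) :
    ∃ g : GL ι F, ∀ v, Ψ v = (g : Matrix ι ι F) *ᵥ (σ ∘ v) := by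
  have h0 : Ψ 0 = 0 := by
    have := hadd 0 0
    rw [add_zero] at this
    exact left_eq_add.mp this
  let M : Matrix ι ι F := fun i j => Ψ (Pi.single j 1) i
  have hM : ∀ w, Ψ w = M *ᵥ (σ ∘ w) := by
    intro w
    have hsum : ∀ (s : Finset ι), Ψ (∑ j ∈ s, w j • Pi.single j 1) = ∑ j ∈ s, σ (w j) • Ψ (Pi.single j 1) := by
      intro s
      induction s using Finset.induction_on with
      | empty => rw [Finset.sum_empty, Finset.sum_empty, h0]
      | insert a s ha ih => rw [Finset.sum_insert ha, Finset.sum_insert ha, hadd, ih, hsm]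
    have h1 : w = ∑ j, w j • (Pi.single j 1 : ι → F) := by
      conv_lhs => rw [← Finset.univ_sum_single w]
      refine Finset.sum_congr rfl fun j _ => ?_
      rw [← Pi.single_smul, smul_eq_mul, mul_one]
    conv_lhs => rw [h1, hsum]
    ext i
    rw [Finset.sum_apply]
    show _ = ∑ j, M i j * σ (w j)
    refine Finset.sum_congr rfl fun j _ => ?_
    rw [Pi.smul_apply, smul_eq_mul, mul_comm]
  have hu : IsUnit M := by
    rw [← Matrix.mulVec_injective_iff_isUnit]
    intro x y hxy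
    have h1 : M *ᵥ (x - y) = 0 := by
      rw [mulVec_sub, sub_eq_zero]; exact hxy
    have h2 : Ψ (σ.symm ∘ (x - y)) = 0 := by
      rw [hM, ← h1]
      congr 1
      ext i
      simp
    have h3 := hinj _ h2
    rw [← sub_eq_zero]
    ext i
    have h4 := congrFun h3 i
    simp only [Function.comp_apply, Pi.zero_apply, map_eq_zero_iff σ.symm σ.symm.injective] at h4
    exact h4
  obtain ⟨g, hg⟩ := hu
  exact ⟨g, fun w => by rw [hg, hM]⟩

/-- **Fundamental theorem of projective geometry** for a map on nonzero vectors. -/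
theorem ftpg [Finite F] {i0 i1 i2 : ι} (h01 : i0 ≠ i1) (h02 : i0 ≠ i2) (h12 : i1 ≠ i2) (f : (ι → F) → (ι → F))
    (hf0 : ∀ v, v ≠ 0 → f v ≠ 0) (hf1 : ∀ v w, v ≠ 0 → w ≠ 0 → PF F v w → PF F (f v) (f w))
    (hf2 : ∀ v w, v ≠ 0 → w ≠ 0 → PF F (f v) (f w) → PF F v w)
    (hf3 : ∀ u v w, u ≠ 0 → v ≠ 0 → w ≠ 0 → (∃ a b : F, w = a • u + b • v) → ∃ a b : F, f w = a • f u + b • f v)
    (hf4 : ∀ u v w, u ≠ 0 → v ≠ 0 → w ≠ 0 → (∃ a b : F, f w = a • f u + b • f v) → ∃ a b : F, w = a • u + b • v) :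
    ∃ (σ : F ≃+* F) (g : GL ι F), ∀ v, v ≠ 0 → PF F (f v) ((g : Matrix ι ι F) *ᵥ (σ ∘ v)) := by
  classical
  set e : ι → F := Pi.single i0 1 with he
  have he0 : e i0 = 1 := by rw [he, Pi.single_eq_same]
  have hene : e ≠ 0 := by
    intro h
    have := congrFun h i0
    rw [he0] at this
    exact one_ne_zero this
  set E := f e with hE
  have hEne : E ≠ 0 := hf0 e hene
  -- `H` is the hyperplane `v i0 = 0`
  let H : Submodule F (ι → F) := LinearMap.ker (LinearMap.proj i0)
  have hH : ∀ v : ι → F, v ∈ H ↔ v i0 = 0 := fun v => Iff.rfl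
  have hev : ∀ v : ι → F, v i0 = 0 → e + v ≠ 0 := by
    intro v hv h
    have := congrFun h i0
    rw [Pi.add_apply, he0, hv, add_zero] at this
    exact one_ne_zero this
  -- `Φ`
  have hΦ : ∀ v : ι → F, v i0 = 0 → v ≠ 0 → ∃ c : F, c ≠ 0 ∧ PF F (f (e + v)) (E + c • f v) := by
    intro v hv hvne
    obtain ⟨a, b, hab⟩ := hf3 e v (e + v) hene hvne (hev v hv) ⟨1, 1, by rw [one_smul, one_smul]⟩
    have ha : a ≠ 0 := by
      rintro rfl
      rw [zero_smul, zero_add] at hab
      have hb : b ≠ 0 := by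
        rintro rfl
        rw [zero_smul] at hab
        exact hf0 _ (hev v hv) hab
      obtain ⟨k, -, hk⟩ := hf2 v (e + v) hvne (hev v hv) ⟨b, hb, hab⟩
      have := congrFun hk i0
      rw [Pi.add_apply, he0, hv, Pi.smul_apply, hv, smul_zero, add_zero] at this
      exact one_ne_zero this
    have hb : b ≠ 0 := by
      rintro rfl
      rw [zero_smul, add_zero] at hab
      obtain ⟨k, -, hk⟩ := hf2 e (e + v) hene (hev v hv) ⟨a, ha, hab⟩
      have hk1 : k = 1 := by
        have := congrFun hk i0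
        rw [Pi.add_apply, he0, hv, Pi.smul_apply, he0, add_zero, smul_eq_mul, mul_one] at this
        exact this.symm
      rw [hk1, one_smul] at hk
      exact hvne (add_eq_left.1 hk)
    refine ⟨b / a, div_ne_zero hb ha, a⁻¹, inv_ne_zero ha, ?_⟩
    rw [hab, smul_add, smul_smul, smul_smul, inv_mul_cancel₀ ha, one_smul]
    congr 2
    field_simp
  let Φ : (ι → F) → (ι → F) := fun v => if h : v i0 = 0 ∧ v ≠ 0 then (hΦ v h.1 h.2).choose • f v else 0
  have hΦ0 : Φ 0 = 0 := by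
    show (if h : (0 : ι → F) i0 = 0 ∧ (0 : ι → F) ≠ 0 then _ else 0) = 0
    rw [dif_neg]
    rintro ⟨-, h⟩
    exact h rfl
  have hΦ1 : ∀ v : ι → F, v i0 = 0 → v ≠ 0 → PF F (f v) (Φ v) ∧ PF F (f (e + v)) (E + Φ v) := by
    intro v hv hvne
    have hdef : Φ v = (hΦ v hv hvne).choose • f v := dif_pos ⟨hv, hvne⟩
    obtain ⟨h1, h2⟩ := (hΦ v hv hvne).choose_spec
    rw [hdef]
    exact ⟨⟨_, h1, rfl⟩, h2⟩
  have hΦne : ∀ v : ι → F, v i0 = 0 → v ≠ 0 → Φ v ≠ 0 := by
    intro v hv hvne h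
    obtain ⟨c, hc, h1⟩ := (hΦ1 v hv hvne).1
    rw [h] at h1
    exact smul_ne_zero hc (hf0 v hvne) h1.symm
  -- independence
  have hind : ∀ v w : ι → F, v i0 = 0 → w i0 = 0 → v ≠ 0 → w ≠ 0 → ¬ PF F v w → ∀ a b c : F,
      a • E + b • Φ v + c • Φ w = 0 → a = 0 ∧ b = 0 ∧ c = 0 := by
    intro v w hv hw hvne hwne hp a b c h
    obtain ⟨kv, hkv, hv1⟩ := (hΦ1 v hv hvne).1
    obtain ⟨kw, hkw, hw1⟩ := (hΦ1 w hw hwne).1
    have ha : a = 0 := by
      by_contra ha
      obtain ⟨x, y, hxy⟩ := hf4 v w e hvne hwne hene ⟨-(a⁻¹ * b * kv), -(a⁻¹ * c * kw), by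
        rw [hv1, hw1] at h
        have h2 : E = a⁻¹ • (a • E) := by rw [smul_smul, inv_mul_cancel₀ ha, one_smul]
        have h3 : a • E = -(b • kv • f v) - c • kw • f w := by
          rw [← sub_eq_zero, ← h]; abel
        rw [← hE, h2, h3, smul_sub, smul_neg]
        simp only [neg_smul, mul_smul]
        abel⟩
      have := congrFun hxy i0
      rw [he0, Pi.add_apply, Pi.smul_apply, Pi.smul_apply, hv, hw, smul_zero, smul_zero, add_zero] at this
      exact one_ne_zero this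
    rw [ha, zero_smul, zero_add] at h
    refine ⟨ha, ?_⟩
    have hpp : ¬ PF F (Φ v) (Φ w) := by
      intro h'
      exact hp (hf2 v w hvne hwne (((hΦ1 v hv hvne).1.trans h').trans (hΦ1 w hw hwne).1.symm))
    have hb : b = 0 := by
      by_contra hb
      have hc : c ≠ 0 := by
        rintro rfl
        rw [zero_smul, add_zero] at h
        exact smul_ne_zero hb (hΦne v hv hvne) h
      apply hpp
      refine ⟨-(c⁻¹ * b), neg_ne_zero.2 (mul_ne_zero (inv_ne_zero hc) hb), ?_⟩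
      have h2 : c • Φ w = -(b • Φ v) := by
        rw [eq_neg_iff_add_eq_zero, add_comm]; exact h
      calc Φ w = c⁻¹ • (c • Φ w) := by rw [smul_smul, inv_mul_cancel₀ hc, one_smul]
        _ = _ := by rw [h2, smul_neg, smul_smul, neg_smul]
    rw [hb, zero_smul, zero_add] at h
    exact ⟨hb, (smul_eq_zero.1 h).resolve_right (hΦne w hw hwne)⟩
  -- additivity, independent case
  have hadd1 : ∀ v w : ι → F, v i0 = 0 → w i0 = 0 → v ≠ 0 → w ≠ 0 → ¬ PF F v w → Φ (v + w) = Φ v + Φ w := by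
    intro v w hv hw hvne hwne hp
    have hvw0 : (v + w) i0 = 0 := by rw [Pi.add_apply, hv, hw, add_zero]
    have hvwne : v + w ≠ 0 := by
      intro h
      apply hp
      exact ⟨-1, by simp, by rw [neg_one_smul]; exact (neg_eq_of_add_eq_zero_right h).symm⟩
    obtain ⟨kv, hkv, hv1⟩ := (hΦ1 v hv hvne).2
    obtain ⟨kw, hkw, hw1⟩ := (hΦ1 w hw hwne).2
    obtain ⟨lv, hlv, hv2⟩ := (hΦ1 v hv hvne).1
    obtain ⟨lw, hlw, hw2⟩ := (hΦ1 w hw hwne).1
    obtain ⟨ks, hks, hs1⟩ := (hΦ1 (v + w) hvw0 hvwne).2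
    obtain ⟨ls, hls, hs2⟩ := (hΦ1 (v + w) hvw0 hvwne).1
    -- `f (e + (v + w))` in two ways
    obtain ⟨a, b, h1⟩ := hf3 (e + v) w (e + (v + w)) (hev v hv) hwne (hev _ hvw0) ⟨1, 1, by rw [one_smul, one_smul]; abel⟩
    obtain ⟨a', b', h2⟩ := hf3 (e + w) v (e + (v + w)) (hev w hw) hvne (hev _ hvw0) ⟨1, 1, by rw [one_smul, one_smul]; abel⟩
    -- `f (v + w)`
    obtain ⟨x, y, h3⟩ := hf3 v w (v + w) hvne hwne hvwne ⟨1, 1, by rw [one_smul, one_smul]⟩
    have hfv : f v = lv⁻¹ • Φ v := by rw [hv2, smul_smul, inv_mul_cancel₀ hlv, one_smul]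
    have hfw : f w = lw⁻¹ • Φ w := by rw [hw2, smul_smul, inv_mul_cancel₀ hlw, one_smul]
    have hfev : f (e + v) = kv⁻¹ • (E + Φ v) := by rw [hv1, smul_smul, inv_mul_cancel₀ hkv, one_smul]
    have hfew : f (e + w) = kw⁻¹ • (E + Φ w) := by rw [hw1, smul_smul, inv_mul_cancel₀ hkw, one_smul]
    have hfs : f (v + w) = ls⁻¹ • Φ (v + w) := by rw [hs2, smul_smul, inv_mul_cancel₀ hls, one_smul]
    have hfes : f (e + (v + w)) = ks⁻¹ • (E + Φ (v + w)) := by rw [hs1, smul_smul, inv_mul_cancel₀ hks, one_smul]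
    rw [hfes, hfev, hfw] at h1
    rw [hfes, hfew, hfv] at h2
    rw [hfs, hfv, hfw] at h3
    -- `Φ (v + w) = s Φ v + t Φ w`
    obtain ⟨s, t, h4⟩ : ∃ s t : F, Φ (v + w) = s • Φ v + t • Φ w := by
      refine ⟨ls * (x * lv⁻¹), ls * (y * lw⁻¹), ?_⟩
      calc Φ (v + w) = ls • (ls⁻¹ • Φ (v + w)) := by rw [smul_smul, mul_inv_cancel₀ hls, one_smul]
        _ = _ := by rw [h3, smul_add]; simp only [smul_smul]
    rw [h4] at h1 h2
    have e1 := hind v w hv hw hvne hwne hp (ks⁻¹ - a * kv⁻¹) (ks⁻¹ * s - a * kv⁻¹) (ks⁻¹ * t - b * lw⁻¹) (by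
      have : ks⁻¹ • (E + (s • Φ v + t • Φ w)) - (a • kv⁻¹ • (E + Φ v) + b • lw⁻¹ • Φ w) = 0 := by rw [h1, sub_self]
      rw [← this]
      simp only [sub_smul, smul_add, mul_smul]
      abel)
    have e2 := hind v w hv hw hvne hwne hp (ks⁻¹ - a' * kw⁻¹) (ks⁻¹ * s - b' * lv⁻¹) (ks⁻¹ * t - a' * kw⁻¹) (by
      have : ks⁻¹ • (E + (s • Φ v + t • Φ w)) - (a' • kw⁻¹ • (E + Φ w) + b' • lv⁻¹ • Φ v) = 0 := by rw [h2, sub_self]
      rw [← this]
      simp only [sub_smul, smul_add, mul_smul]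
      abel)
    have hks' : ks⁻¹ ≠ 0 := inv_ne_zero hks
    have hs : s = 1 := by
      apply mul_left_cancel₀ hks'
      rw [mul_one]
      linear_combination e1.2.1 - e1.1
    have ht : t = 1 := by
      apply mul_left_cancel₀ hks'
      rw [mul_one]
      linear_combination e2.2.2 - e2.1
    rw [h4, hs, ht, one_smul, one_smul]
  set v1 : ι → F := Pi.single i1 1 with hv1
  set v2 : ι → F := Pi.single i2 1 with hv2
  have hv10 : v1 i0 = 0 := by rw [hv1, Pi.single_eq_of_ne h01]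
  have hv20 : v2 i0 = 0 := by rw [hv2, Pi.single_eq_of_ne h02]
  have hv1ne : v1 ≠ 0 := by
    intro h
    have := congrFun h i1
    rw [hv1, Pi.single_eq_same] at this
    exact one_ne_zero this
  have hv2ne : v2 ≠ 0 := by
    intro h
    have := congrFun h i2
    rw [hv2, Pi.single_eq_same] at this
    exact one_ne_zero this
  have hv12 : ¬ PF F v1 v2 := by
    rintro ⟨c, -, h⟩
    have := congrFun h i2
    rw [hv1, hv2, Pi.single_eq_same, Pi.smul_apply, Pi.single_eq_of_ne h12.symm, smul_zero] at this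
    exact one_ne_zero this
  -- additivity
  have hadd : ∀ v w : ι → F, v i0 = 0 → w i0 = 0 → Φ (v + w) = Φ v + Φ w := by
    intro v w hv hw
    by_cases hvne : v = 0
    · rw [hvne, zero_add, hΦ0, zero_add]
    by_cases hwne : w = 0
    · rw [hwne, add_zero, hΦ0, add_zero]
    by_cases hp : PF F v w
    · -- a third vector
      obtain ⟨z, hz, hzne, hzp⟩ : ∃ z : ι → F, z i0 = 0 ∧ z ≠ 0 ∧ ¬ PF F v z := by
        by_cases h : PF F v v1
        · exact ⟨v2, hv20, hv2ne, fun h' => hv12 (h.symm.trans h')⟩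
        · exact ⟨v1, hv10, hv1ne, h⟩
      obtain ⟨c, hc, rfl⟩ := hp
      have hwz : ¬ PF F (c • v) z := fun h => hzp ((PF.smul hc v).trans h)
      have hcvz0 : (c • v + z) i0 = 0 := by rw [Pi.add_apply, hw, hz, add_zero]
      have hcvzne : c • v + z ≠ 0 := by
        intro h
        apply hwz
        exact ⟨-1, by simp, by rw [neg_one_smul]; exact (neg_eq_of_add_eq_zero_right h).symm⟩
      have hvcz : ¬ PF F v (c • v + z) := by
        rintro ⟨k, hk, h⟩
        have h5 : z = (k - c) • v := by rw [sub_smul, ← h]; abel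
        have hkc : k - c ≠ 0 := by
          intro h6
          rw [h6, zero_smul] at h5
          exact hzne h5
        exact hzp ⟨k - c, hkc, h5⟩
      have e1 : Φ (v + (c • v + z)) = Φ v + (Φ (c • v) + Φ z) := by
        rw [hadd1 v _ hv hcvz0 hvne hcvzne hvcz, hadd1 _ _ hw hz hwne hzne hwz]
      have e2 : Φ ((v + c • v) + z) = Φ (v + c • v) + Φ z := by
        by_cases hs : v + c • v = 0
        · rw [hs, zero_add, hΦ0, zero_add]
        · apply hadd1 _ _ (by rw [Pi.add_apply, hv, hw, add_zero]) hz hs hzne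
          intro h
          have h1c : (1 + c) ≠ 0 := by
            intro h6
            apply hs
            have : v + c • v = (1 + c) • v := by rw [add_smul, one_smul]
            rw [this, h6, zero_smul]
          apply hzp
          have : v + c • v = (1 + c) • v := by rw [add_smul, one_smul]
          rw [this] at h
          exact (PF.smul h1c v).trans h
      rw [← add_assoc, e2, ← add_assoc] at e1
      exact add_right_cancel e1
    · exact hadd1 v w hv hw hvne hwne hp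
  -- semilinearity
  obtain ⟨σ, hσ⟩ := exists_sigma (F := F) (U := H) (V := ι → F) (u0 := ⟨v1, hv10⟩) (u1 := ⟨v2, hv20⟩)
    (fun h => hv1ne (congrArg Subtype.val h)) (fun h => hv2ne (congrArg Subtype.val h))
    (by
      rintro ⟨c, hc, h⟩
      exact hv12 ⟨c, hc, congrArg Subtype.val h⟩)
    (fun v => Φ v.1) (fun u v => hadd u.1 v.1 u.2 v.2) (by
      intro w hw
      by_contra hne
      exact hΦne w.1 w.2 (fun h => hne (Subtype.ext h)) hw) (by
      intro w c
      by_cases hw : w.1 = 0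
      · refine ⟨0, ?_⟩
        show Φ (c • w.1) = 0 • Φ w.1
        rw [hw, smul_zero, hΦ0, smul_zero]
      by_cases hc : c = 0
      · refine ⟨0, ?_⟩
        show Φ (c • w.1) = 0 • Φ w.1
        rw [hc, zero_smul, hΦ0, zero_smul]
      have hcw0 : (c • w.1) i0 = 0 := by rw [Pi.smul_apply, show w.1 i0 = 0 from w.2, smul_zero]
      have hcw : c • w.1 ≠ 0 := smul_ne_zero hc hw
      obtain ⟨c', -, h⟩ := ((hΦ1 w.1 w.2 hw).1.symm.trans (hf1 w.1 (c • w.1) hw hcw (PF.smul hc _))).trans (hΦ1 _ hcw0 hcw).1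
      exact ⟨c', h⟩) (by
      intro w w' hw hp
      have hwne : w.1 ≠ 0 := by
        intro h
        apply hw
        show Φ w.1 = 0
        rw [h, hΦ0]
      have hwne' : w'.1 ≠ 0 := by
        intro h
        obtain ⟨c, hc, h1⟩ := hp
        apply smul_ne_zero hc hw
        rw [← h1]
        show Φ w'.1 = 0
        rw [h, hΦ0]
      obtain ⟨c, hc, h⟩ := hf2 w.1 w'.1 hwne hwne' (((hΦ1 w.1 w.2 hwne).1.trans hp).trans (hΦ1 w'.1 w'.2 hwne').1.symm)
      exact ⟨c, hc, Subtype.ext h⟩)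
  have hσ' : ∀ (c : F) (w : ι → F), w i0 = 0 → Φ (c • w) = σ c • Φ w := fun c w hw => hσ c ⟨w, hw⟩
  -- extension
  have hsub : ∀ v : ι → F, (v - v i0 • e) i0 = 0 := by
    intro v
    rw [Pi.sub_apply, Pi.smul_apply, he0, smul_eq_mul, mul_one, sub_self]
  let Ψ : (ι → F) → (ι → F) := fun v => σ (v i0) • E + Φ (v - v i0 • e)
  have hΨadd : ∀ u v, Ψ (u + v) = Ψ u + Ψ v := by
    intro u v
    show σ ((u + v) i0) • E + Φ (u + v - (u + v) i0 • e) = σ (u i0) • E + Φ (u - u i0 • e) + (σ (v i0) • E + Φ (v - v i0 • e))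
    have : u + v - (u + v) i0 • e = (u - u i0 • e) + (v - v i0 • e) := by
      rw [Pi.add_apply, add_smul]; abel
    rw [this, hadd _ _ (hsub u) (hsub v), Pi.add_apply, map_add, add_smul]
    abel
  have hΨsm : ∀ (c : F) v, Ψ (c • v) = σ c • Ψ v := by
    intro c v
    show σ ((c • v) i0) • E + Φ (c • v - (c • v) i0 • e) = σ c • (σ (v i0) • E + Φ (v - v i0 • e))
    have : c • v - (c • v) i0 • e = c • (v - v i0 • e) := by
      rw [Pi.smul_apply, smul_sub, smul_smul, smul_eq_mul]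
    rw [this, hσ' _ _ (hsub v), Pi.smul_apply, smul_eq_mul, map_mul, smul_add, smul_smul]
  have hΨf : ∀ v, v ≠ 0 → PF F (f v) (Ψ v) := by
    intro v hv
    by_cases h0 : v i0 = 0
    · have h1 : Ψ v = Φ v := by
        show σ (v i0) • E + Φ (v - v i0 • e) = Φ v
        rw [h0, map_zero, zero_smul, zero_smul, sub_zero, zero_add]
      rw [h1]
      exact (hΦ1 v h0 hv).1
    · set w := (v i0)⁻¹ • (v - v i0 • e) with hw
      have hw0 : w i0 = 0 := by rw [hw, Pi.smul_apply, hsub, smul_zero]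
      have hvw : v = v i0 • (e + w) := by
        rw [hw, smul_add, smul_smul, mul_inv_cancel₀ h0, one_smul]; abel
      have hpv : PF F (e + w) v := ⟨v i0, h0, hvw⟩
      have hσ0 : σ (v i0) ≠ 0 := by
        intro h
        exact h0 ((map_eq_zero_iff σ σ.injective).1 h)
      have h2 : PF F (f (e + w)) (E + Φ w) := by
        by_cases hwne : w = 0
        · rw [hwne, hΦ0, add_zero, add_zero]
          exact PF.refl _
        · exact (hΦ1 w hw0 hwne).2
      have h3 : Ψ v = σ (v i0) • (E + Φ w) := by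
        show σ (v i0) • E + Φ (v - v i0 • e) = _
        rw [hw, hσ' _ _ (hsub v), smul_add, smul_smul, map_inv₀, mul_inv_cancel₀ hσ0, one_smul]
      rw [h3]
      exact ((hf1 v (e + w) hv (hev w hw0) hpv.symm).trans h2).trans (PF.smul hσ0 _)
  obtain ⟨g, hg⟩ := exists_matrix σ Ψ hΨadd hΨsm (by
    intro v hv
    by_contra hne
    obtain ⟨c, hc, h⟩ := hΨf v hne
    rw [hv] at h
    exact smul_ne_zero hc (hf0 v hne) h.symm)
  refine ⟨σ, g, fun v hv => ?_⟩
  rw [← hg]
  exact hΨf v hv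

end FTPG

end CfsgLib.FTPG27
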