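import Cfsg.Agent.LibAutO27k
import Cfsg.Agent.LibFTPG27
import Cfsg.Agent.LibH22Fin
import Cfsg.Prelude.Def_LieTypeDatum

set_option autoImplicit false

/-! Automorphisms of `PΩ(Q)` for the standard forms. -/

namespace CfsgLib.AutO27

open Cfsg.Agent.H22 CfsgLib.SylCen27 Module Matrix

section witt
variable {F V : Type*} [Field F] [AddCommGroup V] [Module F V] {Q : QuadraticForm F V}

local notation "B" => QuadraticMap.polar Q

/-- Witt index three: totally singular subspaces have dimension at most three -/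
theorem finrank_le_three [FiniteDimensional F V] {n : ℕ} {e f : Fin n → V} {u : V} (h : Fr Q e f u)
    (hA : ∀ x, (∀ i, B (e i) x = 0) → (∀ i, B (f i) x = 0) → Q x = 0 → x = 0) (U : Submodule F V) (hU : ∀ x ∈ U, Q x = 0) :
    finrank F U ≤ n := by
  have hUB : ∀ x ∈ U, ∀ y ∈ U, B x y = 0 := by
    intro x hx y hy
    have h1 := hU _ (U.add_mem hx hy)
    rw [qadd, hU _ hx, hU _ hy] at h1
    linear_combination h1
  have hdec : ∀ x ∈ U, (∀ i, B (e i) x = 0) → x = ∑ i, B (f i) x • e i := by
    intro x hx hex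
    rw [← sub_eq_zero]
    have hsum : ∀ t, B t (∑ i, B (f i) x • e i) = ∑ i, B (f i) x * B t (e i) := by
      intro t
      have h1 : B t (∑ i, B (f i) x • e i) = QuadraticMap.polarBilin Q t (∑ i, B (f i) x • e i) := rfl
      rw [h1, map_sum]
      refine Finset.sum_congr rfl fun i _ => ?_
      rw [map_smul]; rfl
    have hQsum : Q (∑ i, B (f i) x • e i) = 0 := by
      have h2 : ∀ s : Finset (Fin n), Q (∑ i ∈ s, B (f i) x • e i) = 0 := by
        intro s
        induction s using Finset.induction_on with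
        | empty => simp
        | insert a s ha ih =>
          rw [Finset.sum_insert ha, qadd, ih, qsmul, h.qe]
          have h3 : B (B (f a) x • e a) (∑ i ∈ s, B (f i) x • e i) = QuadraticMap.polarBilin Q (B (f a) x • e a) (∑ i ∈ s, B (f i) x • e i) := rfl
          rw [h3, map_sum]
          have h4 : ∀ i ∈ s, QuadraticMap.polarBilin Q (B (f a) x • e a) (B (f i) x • e i) = 0 := by
            intro i _
            show B (B (f a) x • e a) (B (f i) x • e i) = 0
            rw [QuadraticMap.polar_smul_left, QuadraticMap.polar_smul_right, h.ee]; simp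
          rw [Finset.sum_eq_zero h4]; simp
      exact h2 _
    apply hA
    · intro i
      rw [QuadraticMap.polar_sub_right, hex, hsum]
      simp only [h.ee, mul_zero, Finset.sum_const_zero, sub_zero]
    · intro i
      rw [QuadraticMap.polar_sub_right, hsum, Finset.sum_eq_single i, h.fe, mul_one, sub_self]
      · intro j _ hj
        rw [h.fe' _ _ (Ne.symm hj), mul_zero]
      · intro hi; exact absurd (Finset.mem_univ i) hi
    · rw [qsub, hU x hx, hQsum, hsum]
      have : ∀ i, B (f i) x * B x (e i) = 0 := fun i => by rw [bsymm x (e i), hex i, mul_zero]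
      simp [this]
  -- the two maps
  let T : U →ₗ[F] (Fin n → F) := LinearMap.pi fun i => (QuadraticMap.polarBilin Q (e i)).comp U.subtype
  let D : LinearMap.ker T →ₗ[F] (Fin n → F) := (LinearMap.pi fun i => (QuadraticMap.polarBilin Q (f i)).comp U.subtype).comp (LinearMap.ker T).subtype
  have hT : ∀ (x : U) i, T x i = B (e i) x.1 := fun _ _ => rfl
  have hD : ∀ (x : LinearMap.ker T) i, D x i = B (f i) x.1.1 := fun _ _ => rfl
  have hker : ∀ x : LinearMap.ker T, ∀ i, B (e i) x.1.1 = 0 := by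
    intro x i
    have := congrFun (LinearMap.mem_ker.1 x.2) i
    rw [← hT]; exact this
  have hDinj : Function.Injective D := by
    rw [← LinearMap.ker_eq_bot, LinearMap.ker_eq_bot']
    intro x hx
    have h1 := hdec x.1.1 x.1.2 (hker x)
    have h2 : x.1.1 = 0 := by
      rw [h1]
      apply Finset.sum_eq_zero
      intro i _
      rw [← hD, hx, Pi.zero_apply, zero_smul]
    exact Subtype.ext (Subtype.ext h2)
  have h1 := LinearMap.finrank_range_add_finrank_ker T
  have h2 : finrank F (LinearMap.range D) = finrank F (LinearMap.ker T) := LinearMap.finrank_range_of_inj hDinj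
  have hnd : (Matrix.toBilin' (1 : Matrix (Fin n) (Fin n) F)).Nondegenerate :=
    (Matrix.nondegenerate_of_det_ne_zero (by rw [Matrix.det_one]; exact one_ne_zero)).toBilin'
  have h3 := LinearMap.BilinForm.finrank_orthogonal hnd (LinearMap.range D)
  have h4 : LinearMap.range T ≤ LinearMap.BilinForm.orthogonal (Matrix.toBilin' (1 : Matrix (Fin n) (Fin n) F)) (LinearMap.range D) := by
    rintro _ ⟨x, rfl⟩
    rw [LinearMap.BilinForm.mem_orthogonal_iff]
    rintro _ ⟨y, rfl⟩
    show Matrix.toBilin' (1 : Matrix (Fin n) (Fin n) F) (D y) (T x) = 0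
    rw [Matrix.toBilin'_apply', Matrix.one_mulVec]
    have h5 := hUB y.1.1 y.1.2 x.1 x.2
    rw [hdec y.1.1 y.1.2 (hker y), bsymm] at h5
    have h6 : B x.1 (∑ i, B (f i) y.1.1 • e i) = QuadraticMap.polarBilin Q x.1 (∑ i, B (f i) y.1.1 • e i) := rfl
    rw [h6, map_sum] at h5
    rw [dotProduct, ← h5]
    refine Finset.sum_congr rfl fun i _ => ?_
    rw [map_smul, hD, hT, smul_eq_mul]
    show _ = _ * B x.1 (e i)
    rw [bsymm x.1 (e i)]
  have h5 := Submodule.finrank_mono h4
  have h6 : finrank F (LinearMap.range D) ≤ n := by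
    have := Submodule.finrank_le (LinearMap.range D)
    simpa using this
  rw [h3, h2] at h5
  simp only [finrank_fin_fun] at h5
  rw [h2] at h6
  omega

theorem alt_of_witt [FiniteDimensional F V] {e f : Fin 3 → V} {u : V} (h : Fr Q e f u)
    (hA : ∀ x, (∀ i, B (e i) x = 0) → (∀ i, B (f i) x = 0) → Q x = 0 → x = 0)
    (L1 L2 : Submodule F V) (h1 : TL Q L1) (h2 : TL Q L2) (hp : ∀ x ∈ L1, ∀ y ∈ L2, B x y = 0) : ∃ x ∈ L1, x ∈ L2 ∧ x ≠ 0 := by
  by_contra hcon
  push Not at hcon
  have hinf : L1 ⊓ L2 = ⊥ := by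
    rw [eq_bot_iff]
    intro x hx
    rw [Submodule.mem_bot]
    exact hcon x hx.1 hx.2
  have h3 := Submodule.finrank_sup_add_finrank_inf_eq L1 L2
  rw [hinf, finrank_bot, h1.fr, h2.fr] at h3
  have h4 := finrank_le_three h hA (L1 ⊔ L2) (by
    intro x hx
    obtain ⟨a, ha, b, hb, rfl⟩ := Submodule.mem_sup.1 hx
    rw [qadd, h1.sing a ha, h2.sing b hb, hp a ha b hb]; simp)
  omega

end witt

section mat
variable {F : Type*} [Field F] [Finite F] {ι : Type} [Fintype ι] [DecidableEq ι] {Q : QuadraticForm F (ι → F)}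
  {e f : Fin 3 → (ι → F)} {u : ι → F}

theorem Good.hF (h : Good Q e f u) : (∃ a : F, a ≠ 0 ∧ a ≠ 1) ∨ finrank F (ι → F) ≠ 4 := Or.inr (by have := h.h5; omega)

/-- identification with the Eichler group -/
noncomputable def Good.Th (h : Good Q e f u) : Cfsg.Omega F ⇑Q ≃* EG Q :=
  (omegaIso Q).trans (MulEquiv.subgroupCongr (h.hs.commutator_eq h.nd h.hF))

theorem Good.Th_apply (h : Good Q e f u) (g : Cfsg.Omega F ⇑Q) (x : ι → F) :
    (h.Th g).1.1 x = ((g.1 : GL ι F) : Matrix ι ι F) *ᵥ x := rfl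

/-- the identification of the simple groups -/
noncomputable def Good.ThP (h : Good Q e f u) : Cfsg.POmega F ⇑Q ≃* PG Q := quotCenterCongr h.Th

theorem Good.ThP_mk (h : Good Q e f u) (g : Cfsg.Omega F ⇑Q) : h.ThP (QuotientGroup.mk g) = pi Q (h.Th g) := rfl

/-- **every automorphism of `PΩ(Q)` is induced by a semisimilarity** -/
theorem Good.pomega_main (h : Good Q e f u) (β : MulAut (Cfsg.POmega F ⇑Q)) :
    ∃ (g : GL ι F) (σ : F ≃+* F), Cfsg.IsSemisimilarityPair ⇑Q g σ ∧ Cfsg.IsInducedBySemilinearPOmega ⇑Q g σ β := by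
  obtain ⟨s, hs⟩ := h.main ((h.ThP.symm.trans β).trans h.ThP)
  obtain ⟨g, hg⟩ := CfsgLib.FTPG27.exists_matrix s.σ (fun x => s.S x) (fun x y => map_add s.S x y) (fun c v => s.smul c v)
    (fun v hv => (AddEquiv.map_eq_zero_iff s.S).1 hv)
  refine ⟨g, s.σ, ⟨Units.mk0 s.c s.c0, fun v => ?_⟩, ?_⟩
  · have h1 : (g : Matrix ι ι F) *ᵥ (fun i => s.σ (v i)) = s.S v := (hg v).symm
    rw [h1, s.q]; rfl
  · intro s0 s0' hss
    apply h.ThP.injective
    have h1 : h.ThP (β (QuotientGroup.mk s0)) = ((h.ThP.symm.trans β).trans h.ThP) (h.ThP (QuotientGroup.mk s0)) := by simp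
    rw [h1, hs, h.ThP_mk, h.ThP_mk, s.autP_pi]
    congr 1
    apply g_ext
    intro x
    obtain ⟨y, rfl⟩ := s.S.surjective x
    rw [s.aut_S, h.Th_apply, h.Th_apply, hss]
    have h2 : ∀ z, s.S z = (g : Matrix ι ι F) *ᵥ (s.σ ∘ z) := hg
    rw [h2, h2, Matrix.mulVec_mulVec, mul_assoc, ← Units.val_mul, inv_mul_cancel, Units.val_one, mul_one, ← Matrix.mulVec_mulVec]
    congr 1
    ext i
    simp only [Function.comp_apply, Matrix.mulVec, dotProduct, map_sum, map_mul, Matrix.map_apply]

theorem Good.gamma_top (h : Good Q e f u) : Cfsg.gammaPOmega F ⇑Q = ⊤ := by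
  rw [eq_top_iff]
  intro β _
  obtain ⟨g, σ, h1, h2⟩ := h.pomega_main β
  exact Subgroup.subset_closure ⟨g, σ, h1, h2⟩

end mat

section forms
variable {F : Type*} [Field F]

theorem fr_qOdd (m : ℕ) : Fr (qOdd m F) (fun i : Fin m => Pi.single (.inr (.inl i)) 1) (fun i : Fin m => Pi.single (.inr (.inr i)) 1)
    (Pi.single (.inl ()) 1) where
  qe i := by rw [coe_qOdd]; unfold Cfsg.quadFormOdd; simp [Pi.single_apply]
  qf i := by rw [coe_qOdd]; unfold Cfsg.quadFormOdd; simp [Pi.single_apply]
  ee i j := by rw [polar_qOdd]; simp [Pi.single_apply]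
  ff i j := by rw [polar_qOdd]; simp [Pi.single_apply]
  ef i := by rw [polar_qOdd]; simp [Pi.single_apply]
  ef' i j hij := by rw [polar_qOdd]; simp [Pi.single_apply, Ne.symm hij]
  ue i := by rw [polar_qOdd]; simp [Pi.single_apply]
  uf i := by rw [polar_qOdd]; simp [Pi.single_apply]
  qu := by rw [coe_qOdd]; unfold Cfsg.quadFormOdd; simp [Pi.single_apply]

theorem fr_qMinus (m : ℕ) (a b : F) : Fr (qMinus m F a b) (fun i : Fin m => Pi.single (.inl (.inl i)) 1) (fun i : Fin m => Pi.single (.inl (.inr i)) 1)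
    (Pi.single (.inr 0) 1) where
  qe i := by rw [coe_qMinus]; unfold Cfsg.quadFormMinus; simp [Pi.single_apply]
  qf i := by rw [coe_qMinus]; unfold Cfsg.quadFormMinus; simp [Pi.single_apply]
  ee i j := by rw [polar_qMinus]; simp [Pi.single_apply]
  ff i j := by rw [polar_qMinus]; simp [Pi.single_apply]
  ef i := by rw [polar_qMinus]; simp [Pi.single_apply]
  ef' i j hij := by rw [polar_qMinus]; simp [Pi.single_apply, Ne.symm hij]
  ue i := by rw [polar_qMinus]; simp [Pi.single_apply]
  uf i := by rw [polar_qMinus]; simp [Pi.single_apply]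
  qu := by rw [coe_qMinus]; unfold Cfsg.quadFormMinus; simp [Pi.single_apply]

theorem fr_qPlus {m k : ℕ} (hk : k < m) : Fr (qPlus m F) (fun i : Fin k => Pi.single (.inl (Fin.castLE hk.le i)) 1)
    (fun i : Fin k => Pi.single (.inr (Fin.castLE hk.le i)) 1) (Pi.single (.inl ⟨k, hk⟩) 1 + Pi.single (.inr ⟨k, hk⟩) 1) where
  qe i := by rw [coe_qPlus]; unfold Cfsg.quadFormPlus; simp [Pi.single_apply]
  qf i := by rw [coe_qPlus]; unfold Cfsg.quadFormPlus; simp [Pi.single_apply]
  ee i j := by rw [polar_qPlus]; simp [Pi.single_apply]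
  ff i j := by rw [polar_qPlus]; simp [Pi.single_apply]
  ef i := by rw [polar_qPlus]; simp [Pi.single_apply]
  ef' i j hij := by rw [polar_qPlus]; simp [Pi.single_apply, Ne.symm hij]
  ue i := by
    have h1 : (⟨k, hk⟩ : Fin m) ≠ Fin.castLE hk.le i := by
      intro h
      have := congrArg Fin.val h
      simp at this
      have := i.2
      omega
    rw [polar_qPlus]; simp [Pi.single_apply, Ne.symm h1]
  uf i := by
    have h1 : (⟨k, hk⟩ : Fin m) ≠ Fin.castLE hk.le i := by
      intro h
      have := congrArg Fin.val h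
      simp at this
      have := i.2
      omega
    rw [polar_qPlus]; simp [Pi.single_apply, Ne.symm h1]
  qu := by rw [coe_qPlus]; unfold Cfsg.quadFormPlus; simp [Pi.single_apply]

variable [Fintype F]

theorem good_qOdd {m : ℕ} (hm : 3 ≤ m) (h2 : (2 : F) ≠ 0) : ∃ (e f : Fin 3 → (Unit ⊕ (Fin m ⊕ Fin m) → F)) (u : _), Good (qOdd m F) e f u := by
  refine ⟨_, _, _, nondeg_qOdd m h2, (fr_qOdd m).comp (Fin.castLE hm) (Fin.castLE_injective hm), ?_, ?_⟩
  · simp; omega
  · by_cases h4 : 4 ≤ m
    · left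
      exact ⟨_, _, _, (fr_qOdd m).comp (Fin.castLE h4) (Fin.castLE_injective h4)⟩
    · right
      obtain rfl : m = 3 := by omega
      refine alt_of_witt (fr_qOdd 3) ?_
      intro x hx1 hx2 hx3
      have e1 : ∀ i, x (.inr (.inr i)) = 0 := by
        intro i
        have := hx1 i
        rw [polar_qOdd] at this
        simpa [Pi.single_apply] using this
      have e2 : ∀ i, x (.inr (.inl i)) = 0 := by
        intro i
        have := hx2 i
        rw [polar_qOdd] at this
        simpa [Pi.single_apply] using this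
      rw [coe_qOdd] at hx3
      unfold Cfsg.quadFormOdd at hx3
      simp only [e1, mul_zero, Finset.sum_const_zero, add_zero, pow_eq_zero_iff, ne_eq, OfNat.ofNat_ne_zero, not_false_eq_true] at hx3
      ext k
      rcases k with k | k | k
      · exact hx3
      · exact e2 k
      · exact e1 k

theorem good_qMinus {m : ℕ} (hm : 3 ≤ m) (a b : F) (hab : ∀ z₁ z₂ : F, z₁ ^ 2 + a * z₁ * z₂ + b * z₂ ^ 2 = 0 → z₁ = 0 ∧ z₂ = 0) :
    ∃ (e f : Fin 3 → ((Fin m ⊕ Fin m) ⊕ Fin 2 → F)) (u : _), Good (qMinus m F a b) e f u := by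
  refine ⟨_, _, _, nondeg_qMinus m a b hab, (fr_qMinus m a b).comp (Fin.castLE hm) (Fin.castLE_injective hm), ?_, ?_⟩
  · simp; omega
  · by_cases h4 : 4 ≤ m
    · left
      exact ⟨_, _, _, (fr_qMinus m a b).comp (Fin.castLE h4) (Fin.castLE_injective h4)⟩
    · right
      obtain rfl : m = 3 := by omega
      refine alt_of_witt (fr_qMinus 3 a b) ?_
      intro x hx1 hx2 hx3
      have e1 : ∀ i, x (.inl (.inr i)) = 0 := by
        intro i
        have := hx1 i
        rw [polar_qMinus] at this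
        simpa [Pi.single_apply] using this
      have e2 : ∀ i, x (.inl (.inl i)) = 0 := by
        intro i
        have := hx2 i
        rw [polar_qMinus] at this
        simpa [Pi.single_apply] using this
      rw [coe_qMinus] at hx3
      unfold Cfsg.quadFormMinus at hx3
      simp only [e1, mul_zero, Finset.sum_const_zero, zero_add] at hx3
      obtain ⟨h5, h6⟩ := hab _ _ hx3
      ext k
      rcases k with (k | k) | k
      · exact e2 k
      · exact e1 k
      · fin_cases k
        · exact h5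
        · exact h6

theorem good_qPlus {m : ℕ} (hm : 5 ≤ m) : ∃ (e f : Fin 3 → (Fin m ⊕ Fin m → F)) (u : _), Good (qPlus m F) e f u := by
  refine ⟨_, _, _, nondeg_qPlus m, fr_qPlus (k := 3) (by omega), ?_, Or.inl ⟨_, _, _, fr_qPlus (k := 4) (by omega)⟩⟩
  simp; omega

end forms

end CfsgLib.AutO27
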