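import Cfsg.Agent.LibAutPSL27i

set_option autoImplicit false

/-! Outer automorphism groups of `PSL_n(F)`. -/

namespace CfsgLib.AutPSL27

open Matrix

variable {F : Type*} [Field F] {n : ℕ}

theorem out_struct [Finite F] (p : ℕ) [Fact p.Prime] [CharP F p] (hn : 2 ≤ n)
    {B : Type*} [Group B] (χ : MulAut (Matrix.ProjectiveSpecialLinearGroup (Fin n) F) →* B)
    (hs : Function.Surjective χ) (hk : ∀ α, (∃ g : GL (Fin n) F, α = lft (cj g)) ↔ χ α = 1) :
    ∃ φ : Cfsg.Out (Matrix.ProjectiveSpecialLinearGroup (Fin n) F) →* B, Function.Surjective φ ∧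
      (∀ α : MulAut (Matrix.ProjectiveSpecialLinearGroup (Fin n) F), φ (QuotientGroup.mk α) = χ α) ∧
      IsCyclic φ.ker ∧ Nat.card φ.ker = Nat.gcd n (Nat.card F - 1) := by
  have hinn : ∀ α ∈ Cfsg.Inn (Matrix.ProjectiveSpecialLinearGroup (Fin n) F), χ α = 1 := by
    rintro _ ⟨x, rfl⟩
    rw [← hk]
    induction x using QuotientGroup.induction_on with
    | H s => exact ⟨_, conj_mk s⟩
  let φ : Cfsg.Out (Matrix.ProjectiveSpecialLinearGroup (Fin n) F) →* B := QuotientGroup.lift _ χ hinn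
  have hφ : ∀ α : MulAut (Matrix.ProjectiveSpecialLinearGroup (Fin n) F), φ (QuotientGroup.mk α) = χ α := fun α => rfl
  have hker : φ.ker = (om n F).range := by
    ext x
    induction x using QuotientGroup.induction_on with
    | H α =>
      rw [MonoidHom.mem_ker, hφ, ← hk]
      constructor
      · rintro ⟨g, rfl⟩
        exact ⟨g, rfl⟩
      · rintro ⟨g, hg⟩
        have h1 : (lft (cj g))⁻¹ * α ∈ Cfsg.Inn (Matrix.ProjectiveSpecialLinearGroup (Fin n) F) := QuotientGroup.eq.1 hg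
        obtain ⟨x, hx⟩ := h1
        induction x using QuotientGroup.induction_on with
        | H s =>
          rw [conj_mk] at hx
          refine ⟨g * Matrix.SpecialLinearGroup.toGL s, ?_⟩
          rw [map_mul, map_mul, hx, mul_inv_cancel_left]
  refine ⟨φ, ?_, hφ, ?_⟩
  · intro b
    obtain ⟨α, hα⟩ := hs b
    exact ⟨QuotientGroup.mk α, by rw [hφ, hα]⟩
  · rw [hker]
    exact om_range p hn

theorem chi3_surj [Finite F] {χ : MulAut (Matrix.ProjectiveSpecialLinearGroup (Fin n) F) →* (F ≃+* F) × Multiplicative (ZMod 2)}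
    (hχ : ∀ (α : MulAut (Matrix.ProjectiveSpecialLinearGroup (Fin n) F)) (b : (F ≃+* F) × Multiplicative (ZMod 2)),
        (∃ (g : GL (Fin n) F) (k : ℕ), α = lft (cj g * fl b.1 * it ^ k) ∧ Multiplicative.ofAdd ((k : ℕ) : ZMod 2) = b.2) ↔ χ α = b) :
    Function.Surjective χ := by
  rintro ⟨σ, ε⟩
  obtain ⟨k, hk⟩ : ∃ k : ℕ, Multiplicative.ofAdd ((k : ℕ) : ZMod 2) = ε := by
    refine ⟨(Multiplicative.toAdd ε).val, ?_⟩
    rw [ZMod.natCast_val, ZMod.cast_id]
    rfl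
  exact ⟨_, (hχ _ (σ, ε)).1 ⟨1, k, rfl, hk⟩⟩

theorem chi3_ker [Finite F] {χ : MulAut (Matrix.ProjectiveSpecialLinearGroup (Fin n) F) →* (F ≃+* F) × Multiplicative (ZMod 2)}
    (hχ : ∀ (α : MulAut (Matrix.ProjectiveSpecialLinearGroup (Fin n) F)) (b : (F ≃+* F) × Multiplicative (ZMod 2)),
        (∃ (g : GL (Fin n) F) (k : ℕ), α = lft (cj g * fl b.1 * it ^ k) ∧ Multiplicative.ofAdd ((k : ℕ) : ZMod 2) = b.2) ↔ χ α = b)
    (α : MulAut (Matrix.ProjectiveSpecialLinearGroup (Fin n) F)) : (∃ g : GL (Fin n) F, α = lft (cj g)) ↔ χ α = 1 := by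
  rw [← hχ]
  have : fl (1 : F ≃+* F) = (1 : MulAut (Matrix.SpecialLinearGroup (Fin n) F)) := map_one fl
  constructor
  · rintro ⟨g, rfl⟩
    exact ⟨g, 0, by rw [Prod.fst_one, this, pow_zero, mul_one, mul_one], by simp⟩
  · rintro ⟨g, k, rfl, hk⟩
    refine ⟨g, ?_⟩
    rw [Prod.snd_one] at hk
    have hk' : ((k : ℕ) : ZMod 2) = 0 := hk
    rw [it_pow_even hk', Prod.fst_one, this, mul_one, mul_one]

theorem chi2_ker [Finite F] {χ : MulAut (Matrix.ProjectiveSpecialLinearGroup (Fin 2) F) →* (F ≃+* F)}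
    (hχ : ∀ (α : MulAut (Matrix.ProjectiveSpecialLinearGroup (Fin 2) F)) (σ : F ≃+* F),
        (∃ (g : GL (Fin 2) F), α = lft (cj g * fl σ)) ↔ χ α = σ)
    (α : MulAut (Matrix.ProjectiveSpecialLinearGroup (Fin 2) F)) : (∃ g : GL (Fin 2) F, α = lft (cj g)) ↔ χ α = 1 := by
  rw [← hχ]
  have : CfsgLib.AutPSL27.fl (1 : F ≃+* F) = (1 : MulAut (Matrix.SpecialLinearGroup (Fin 2) F)) := map_one CfsgLib.AutPSL27.fl
  simp only [this, mul_one]

theorem conj_ker {A B C : Type*} [Group A] [Group B] [Group C] (φ : A →* B) (e : B ≃* C) :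
    ((e : B →* C).comp φ).ker = φ.ker := by
  ext x
  rw [MonoidHom.mem_ker, MonoidHom.mem_ker, MonoidHom.comp_apply]
  exact map_eq_one_iff e e.injective

end CfsgLib.AutPSL27
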