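import Mathlib

set_option autoImplicit false

/-! Hilbert 90 for semilinear maps over (finite) fields. -/

namespace CfsgLib.H9027

open Matrix

section Fixed

variable {F : Type*} [Field F] {ι : Type*} [Fintype ι] [DecidableEq ι]

theorem iterate_add {Φ : (ι → F) → (ι → F)} (hadd : ∀ u v, Φ (u + v) = Φ u + Φ v) (k : ℕ) (u v : ι → F) :
    Φ^[k] (u + v) = Φ^[k] u + Φ^[k] v := by
  induction k with
  | zero => rfl
  | succ k ih => rw [Function.iterate_succ_apply', ih, hadd, Function.iterate_succ_apply', Function.iterate_succ_apply']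

theorem iterate_smul {Φ : (ι → F) → (ι → F)} {σ : F ≃+* F} (hsm : ∀ (a : F) v, Φ (a • v) = σ a • Φ v) (k : ℕ) (a : F)
    (v : ι → F) : Φ^[k] (a • v) = (σ ^ k) a • Φ^[k] v := by
  induction k with
  | zero => simp
  | succ k ih =>
    rw [Function.iterate_succ_apply', ih, hsm, Function.iterate_succ_apply', pow_succ']
    rfl

/-- The fixed vectors of a semilinear map of finite order contain a basis. -/
theorem exists_fixed_basis (σ : F ≃+* F) (r : ℕ) (hr : 0 < r) (hσ : ∀ i j, i < r → j < r → σ ^ i = σ ^ j → i = j)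
    (Φ : (ι → F) → (ι → F)) (hadd : ∀ u v, Φ (u + v) = Φ u + Φ v) (hsm : ∀ (a : F) v, Φ (a • v) = σ a • Φ v)
    (hΦ : ∀ v, Φ^[r] v = v) :
    ∃ h : GL ι F, ∀ i, Φ ((h : Matrix ι ι F) *ᵥ Pi.single i 1) = (h : Matrix ι ι F) *ᵥ Pi.single i 1 := by
  classical
  let Φh : (ι → F) →+ (ι → F) := AddMonoidHom.mk' Φ hadd
  let b : (ι → F) → (ι → F) := fun v => ∑ i ∈ Finset.range r, Φ^[i] v
  have hb : ∀ v, Φ (b v) = b v := by
    intro v
    have h1 : Φ (b v) = ∑ i ∈ Finset.range r, Φ^[i + 1] v := by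
      show Φh (∑ i ∈ Finset.range r, Φ^[i] v) = _
      rw [map_sum]
      refine Finset.sum_congr rfl fun i _ => ?_
      rw [Function.iterate_succ_apply']; rfl
    have h2 : ∑ i ∈ Finset.range r, Φ^[i + 1] v + Φ^[0] v = ∑ i ∈ Finset.range r, Φ^[i] v + Φ^[r] v := by
      rw [← Finset.sum_range_succ' (fun i => Φ^[i] v), ← Finset.sum_range_succ]
    rw [hΦ, Function.iterate_zero_apply] at h2
    rw [h1]
    exact add_right_cancel h2
  have hspan : Submodule.span F {v : ι → F | Φ v = v} = ⊤ := by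
    by_contra hne
    obtain ⟨f, hf, hle⟩ := Submodule.exists_le_ker_of_lt_top _ (lt_top_iff_ne_top.2 hne)
    apply hf
    apply LinearMap.ext
    intro v
    rw [LinearMap.zero_apply]
    have key : ∀ a : F, ∑ i : Fin r, f (Φ^[(i : ℕ)] v) * (σ ^ (i : ℕ)) a = 0 := by
      intro a
      have h1 : f (b (a • v)) = 0 := hle (Submodule.subset_span (hb (a • v)))
      rw [← h1]
      show _ = f (∑ i ∈ Finset.range r, Φ^[i] (a • v))
      rw [map_sum, Finset.sum_range]
      refine Finset.sum_congr rfl fun i _ => ?_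
      rw [iterate_smul hsm, map_smul, smul_eq_mul, mul_comm]
    have hli := linearIndependent_monoidHom F F
    have hinj : Function.Injective (fun i : Fin r => ((σ ^ (i : ℕ) : F ≃+* F) : F →* F)) := by
      intro i j hij
      apply Fin.ext
      apply hσ i j i.2 j.2
      ext a
      exact DFunLike.congr_fun hij a
    have hli2 := hli.comp _ hinj
    rw [Fintype.linearIndependent_iff] at hli2
    have h3 := hli2 (fun i => f (Φ^[(i : ℕ)] v)) (by
      ext a
      rw [Finset.sum_apply]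
      exact key a) ⟨0, hr⟩
    simpa using h3
  let B := Module.Basis.ofSpan (K := F) (V := ι → F) (s := {v : ι → F | Φ v = v}) hspan.ge
  have hB : ∀ i, Φ (B i) = B i := by
    intro i
    have h1 : Set.range B ⊆ {v : ι → F | Φ v = v} := Module.Basis.ofSpan_subset hspan.ge
    exact h1 ⟨i, rfl⟩
  let B' := B.reindex (B.indexEquiv (Pi.basisFun F ι))
  have hB' : ∀ i, Φ (B' i) = B' i := by
    intro i
    rw [Module.Basis.reindex_apply]
    exact hB _
  let e : (ι → F) ≃ₗ[F] (ι → F) := (Pi.basisFun F ι).equiv B' (Equiv.refl ι)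
  have he : ∀ i, e (Pi.single i 1) = B' i := by
    intro i
    have := (Pi.basisFun F ι).equiv_apply i B' (Equiv.refl ι)
    rw [Pi.basisFun_apply] at this
    exact this
  refine ⟨⟨LinearMap.toMatrix' (e : (ι → F) →ₗ[F] (ι → F)), LinearMap.toMatrix' (e.symm : (ι → F) →ₗ[F] (ι → F)), ?_, ?_⟩, ?_⟩
  · rw [← LinearMap.toMatrix'_comp]
    have : (e : (ι → F) →ₗ[F] (ι → F)) ∘ₗ (e.symm : (ι → F) →ₗ[F] (ι → F)) = LinearMap.id := by
      ext x; simp
    rw [this, LinearMap.toMatrix'_id]
  · rw [← LinearMap.toMatrix'_comp]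
    have : (e.symm : (ι → F) →ₗ[F] (ι → F)) ∘ₗ (e : (ι → F) →ₗ[F] (ι → F)) = LinearMap.id := by
      ext x; simp
    rw [this, LinearMap.toMatrix'_id]
  · intro i
    show Φ (LinearMap.toMatrix' (e : (ι → F) →ₗ[F] (ι → F)) *ᵥ Pi.single i 1) = LinearMap.toMatrix' (e : (ι → F) →ₗ[F] (ι → F)) *ᵥ Pi.single i 1
    have h1 : LinearMap.toMatrix' (e : (ι → F) →ₗ[F] (ι → F)) *ᵥ Pi.single i 1 = B' i := by
      rw [LinearMap.toMatrix'_mulVec, ← he]; rfl
    rw [h1, hB']

/-- Hilbert 90 for units. -/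
theorem exists_unit_eq (σ : F ≃+* F) (r : ℕ) (hr : 0 < r) (hσ : ∀ i j, i < r → j < r → σ ^ i = σ ^ j → i = j)
    (hσr : σ ^ r = 1) (c : F) (hc : ∏ i ∈ Finset.range r, (σ ^ i) c = 1) : ∃ y : F, y ≠ 0 ∧ c * σ y = y := by
  have hit : ∀ k (v : Unit → F), (fun v : Unit → F => c • (σ ∘ v))^[k] v = (∏ i ∈ Finset.range k, (σ ^ i) c) • ((σ ^ k : F ≃+* F) ∘ v) := by
    intro k v
    induction k with
    | zero =>
      ext i
      simp
    | succ k ih =>
      rw [Function.iterate_succ_apply', ih, Finset.prod_range_succ']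
      ext i
      simp only [Pi.smul_apply, Function.comp_apply, smul_eq_mul, map_mul, map_prod, pow_zero]
      have : ∀ x, σ ((σ ^ k) x) = (σ ^ (k + 1)) x := by
        intro x
        rw [pow_succ']; rfl
      rw [this]
      have h2 : ∀ j, σ ((σ ^ j) c) = (σ ^ (j + 1)) c := by
        intro j
        rw [pow_succ']; rfl
      simp only [h2]
      show c * ((∏ x ∈ Finset.range k, (σ ^ (x + 1)) c) * _) = (∏ k ∈ Finset.range k, (σ ^ (k + 1)) c) * c * _
      ring
  obtain ⟨h, hh⟩ := exists_fixed_basis (ι := Unit) σ r hr hσ (fun v => c • (σ ∘ v)) (by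
    intro u v
    ext i
    simp [mul_add]) (by
    intro a v
    ext i
    simp only [Pi.smul_apply, Function.comp_apply, smul_eq_mul, map_mul]
    ring) (by
    intro v
    rw [hit, hc, hσr, one_smul]
    rfl)
  refine ⟨((h : Matrix Unit Unit F) *ᵥ Pi.single () 1) (), ?_, ?_⟩
  · intro h0
    have h1 : (h : Matrix Unit Unit F) *ᵥ Pi.single () 1 = 0 := by
      ext i
      exact h0
    have h2 : ((h⁻¹ : GL Unit F) : Matrix Unit Unit F) *ᵥ ((h : Matrix Unit Unit F) *ᵥ Pi.single () 1) = Pi.single () 1 := by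
      rw [mulVec_mulVec, Units.inv_mul, one_mulVec]
    rw [h1, mulVec_zero] at h2
    have h3 := congrFun h2 ()
    simp at h3
  · exact congrFun (hh ()) ()

end Fixed

section Norm

variable {F : Type*} [Field F]

theorem pow_inj_of_order {σ : F ≃+* F} {r : ℕ} (ho : orderOf σ = r) : ∀ i j, i < r → j < r → σ ^ i = σ ^ j → i = j := by
  intro i j hi hj h
  rw [← ho] at hi hj
  exact pow_injOn_Iio_orderOf hi hj h

theorem norm_shift (σ : F ≃+* F) (r : ℕ) (hσr : σ ^ r = 1) (x : F) :
    ∏ i ∈ Finset.range r, (σ ^ i) (σ x) = ∏ i ∈ Finset.range r, (σ ^ i) x := by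
  have h1 : (∏ i ∈ Finset.range r, (σ ^ (i + 1)) x) * (σ ^ 0) x = (∏ i ∈ Finset.range r, (σ ^ i) x) * (σ ^ r) x := by
    rw [← Finset.prod_range_succ' (fun i => (σ ^ i) x), ← Finset.prod_range_succ]
  have h2 : ∀ i, (σ ^ i) (σ x) = (σ ^ (i + 1)) x := by
    intro i
    rw [pow_succ]; rfl
  simp only [h2]
  by_cases hx : x = 0
  · subst hx
    simp
  rw [hσr, pow_zero, RingAut.one_apply] at h1
  exact mul_right_cancel₀ hx h1

theorem norm_fixed (σ : F ≃+* F) (r : ℕ) (hσr : σ ^ r = 1) (x : F) :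
    σ (∏ i ∈ Finset.range r, (σ ^ i) x) = ∏ i ∈ Finset.range r, (σ ^ i) x := by
  conv_rhs => rw [← norm_shift σ r hσr x]
  rw [map_prod]
  refine Finset.prod_congr rfl fun i _ => ?_
  have h1 : σ ((σ ^ i) x) = (σ ^ (i + 1)) x := by rw [pow_succ']; rfl
  have h2 : (σ ^ i) (σ x) = (σ ^ (i + 1)) x := by rw [pow_succ]; rfl
  rw [h1, h2]

/-- Surjectivity of the norm for an automorphism of order `r` of a finite field. -/
theorem exists_norm [Finite F] (σ : F ≃+* F) (r : ℕ) (hr : 0 < r) (ho : orderOf σ = r) (c : F) (hc : c ≠ 0) (hσc : σ c = c) :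
    ∃ y : F, y ≠ 0 ∧ ∏ i ∈ Finset.range r, (σ ^ i) y = c := by
  have hσr : σ ^ r = 1 := by rw [← ho, pow_orderOf_eq_one]
  have hinj := pow_inj_of_order ho
  let S : ℕ → (Fˣ →* Fˣ) := fun i => Units.map (((σ ^ i : F ≃+* F) : F →+* F) : F →* F)
  have hS : ∀ (i : ℕ) (x : Fˣ), ((S i x : Fˣ) : F) = (σ ^ i) (x : F) := fun i x => rfl
  let N : Fˣ →* Fˣ := ∏ i ∈ Finset.range r, S i
  let D : Fˣ →* Fˣ := MonoidHom.id _ / S 1
  have hN : ∀ x : Fˣ, ((N x : Fˣ) : F) = ∏ i ∈ Finset.range r, (σ ^ i) (x : F) := by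
    intro x
    show (((∏ i ∈ Finset.range r, S i : Fˣ →* Fˣ) x : Fˣ) : F) = _
    rw [MonoidHom.finset_prod_apply, Units.coe_prod]
    rfl
  have hD : ∀ x, D x = x / S 1 x := fun x => rfl
  have hS1 : ∀ x : Fˣ, ((S 1 x : Fˣ) : F) = σ (x : F) := fun x => by rw [hS, pow_one]
  have hNS : ∀ x : Fˣ, N (S 1 x) = N x := by
    intro x
    apply Units.ext
    rw [hN, hN, hS1, norm_shift σ r hσr]
  have hSN : ∀ x : Fˣ, S 1 (N x) = N x := by
    intro x
    apply Units.ext
    rw [hS1, hN, norm_fixed σ r hσr]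
  have h90 : D.range = N.ker := by
    apply le_antisymm
    · rintro _ ⟨x, rfl⟩
      rw [MonoidHom.mem_ker, hD, map_div, hNS, div_self']
    · intro x hx
      rw [MonoidHom.mem_ker] at hx
      have hx' := congrArg Units.val hx
      rw [hN, Units.val_one] at hx'
      obtain ⟨y, hy, hxy⟩ := exists_unit_eq σ r hr hinj hσr _ hx'
      refine ⟨Units.mk0 y hy, ?_⟩
      apply Units.ext
      rw [hD, Units.val_div_eq_div_val, hS1, Units.val_mk0]
      have hσy : σ y ≠ 0 := by
        intro h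
        exact hy ((map_eq_zero_iff σ σ.injective).1 h)
      rw [div_eq_iff hσy, hxy]
  have c1 : Nat.card D.range * Nat.card D.ker = Nat.card Fˣ := by
    rw [← Nat.card_congr (QuotientGroup.quotientKerEquivRange D).toEquiv]
    exact (Subgroup.card_eq_card_quotient_mul_card_subgroup D.ker).symm
  have c2 : Nat.card N.range * Nat.card N.ker = Nat.card Fˣ := by
    rw [← Nat.card_congr (QuotientGroup.quotientKerEquivRange N).toEquiv]
    exact (Subgroup.card_eq_card_quotient_mul_card_subgroup N.ker).symm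
  have hpos : 0 < Nat.card N.ker := Nat.card_pos
  have c3 : Nat.card N.range = Nat.card D.ker := by
    rw [h90, ← c2, mul_comm (Nat.card N.range)] at c1
    exact (Nat.eq_of_mul_eq_mul_left hpos c1).symm
  have hle : N.range ≤ D.ker := by
    rintro _ ⟨x, rfl⟩
    rw [MonoidHom.mem_ker, hD, hSN, div_self']
  have heq : N.range = D.ker := Subgroup.eq_of_le_of_card_ge hle c3.ge
  have hmem : Units.mk0 c hc ∈ D.ker := by
    rw [MonoidHom.mem_ker, hD, div_eq_one]
    apply Units.ext
    rw [hS1, Units.val_mk0, hσc]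
  rw [← heq] at hmem
  obtain ⟨y, hy⟩ := hmem
  refine ⟨y, y.ne_zero, ?_⟩
  rw [← hN, hy]
  rfl

end Norm

section Lang

variable {F : Type*} [Field F] {ι : Type*} [Fintype ι] [DecidableEq ι]

/-- Lang's theorem for semilinear maps, up to scalars. -/
theorem lang_semilinear [Finite F] [Nonempty ι] (σ : F ≃+* F) (r : ℕ) (hr : 0 < r) (ho : orderOf σ = r)
    (Φ : (ι → F) → (ι → F)) (hadd : ∀ u v, Φ (u + v) = Φ u + Φ v) (hsm : ∀ (a : F) v, Φ (a • v) = σ a • Φ v)
    (c : F) (hc : c ≠ 0) (hΦ : ∀ v, Φ^[r] v = c • v) :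
    ∃ (l : F) (h : GL ι F), l ≠ 0 ∧ (∏ i ∈ Finset.range r, (σ ^ i) l = c) ∧
      ∀ i, Φ ((h : Matrix ι ι F) *ᵥ Pi.single i 1) = l • ((h : Matrix ι ι F) *ᵥ Pi.single i 1) := by
  have hσr : σ ^ r = 1 := by rw [← ho, pow_orderOf_eq_one]
  have hinj := pow_inj_of_order ho
  -- `σ c = c`
  have hσc : σ c = c := by
    obtain ⟨i⟩ := ‹Nonempty ι›
    have hΦne : Φ (Pi.single i 1) ≠ 0 := by
      intro h0
      have h1 := hΦ (Pi.single i 1)
      have h2 : ∀ k, 0 < k → Φ^[k] (Pi.single i 1) = 0 := by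
        intro k hk
        induction k with
        | zero => omega
        | succ k ih =>
          have hz : Φ 0 = 0 := by
            have := hadd 0 0
            rw [add_zero] at this
            exact left_eq_add.mp this
          rcases Nat.eq_zero_or_pos k with h | h
          · subst h
            exact h0
          · rw [Function.iterate_succ_apply', ih h, hz]
      rw [h2 r hr] at h1
      have h3 := congrFun h1 i
      simp at h3
      exact hc h3.symm
    have e1 : Φ (Φ^[r] (Pi.single i 1)) = σ c • Φ (Pi.single i 1) := by rw [hΦ, hsm]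
    have e2 : Φ (Φ^[r] (Pi.single i 1)) = c • Φ (Pi.single i 1) := by
      rw [← Function.iterate_succ_apply' Φ, Function.iterate_succ_apply, hΦ]
    rw [e1] at e2
    exact smul_left_injective F hΦne e2
  obtain ⟨l, hl, hN⟩ := exists_norm σ r hr ho c hc hσc
  have hit : ∀ k v, (fun v => l⁻¹ • Φ v)^[k] v = (∏ i ∈ Finset.range k, (σ ^ i) l)⁻¹ • Φ^[k] v := by
    intro k v
    induction k with
    | zero => simp
    | succ k ih =>
      rw [Function.iterate_succ_apply', ih, Finset.prod_range_succ', Function.iterate_succ_apply', hsm, smul_smul, map_inv₀,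
        map_prod]
      have h2 : ∀ j, σ ((σ ^ j) l) = (σ ^ (j + 1)) l := by
        intro j
        rw [pow_succ']; rfl
      simp only [h2]
      congr 1
      rw [mul_inv, pow_zero, RingAut.one_apply, mul_comm]
  obtain ⟨h, hh⟩ := exists_fixed_basis σ r hr hinj (fun v => l⁻¹ • Φ v) (by
    intro u v
    rw [hadd, smul_add]) (by
    intro a v
    rw [hsm, smul_comm]) (by
    intro v
    rw [hit, hN, hΦ, smul_smul, inv_mul_cancel₀ hc, one_smul])
  refine ⟨l, h, hl, hN, fun i => ?_⟩
  have h3 : l⁻¹ • Φ ((h : Matrix ι ι F) *ᵥ Pi.single i 1) = (h : Matrix ι ι F) *ᵥ Pi.single i 1 := hh i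
  conv_rhs => rw [← h3, smul_smul, mul_inv_cancel₀ hl, one_smul]

end Lang

section FixedField

variable {F : Type*} [Field F]

/-- the fixed field of a field automorphism -/
def fixF (σ : F ≃+* F) : Subfield F where
  carrier := {a | σ a = a}
  mul_mem' {a b} ha hb := by
    show σ (a * b) = a * b
    rw [map_mul, show σ a = a from ha, show σ b = b from hb]
  one_mem' := map_one σ
  add_mem' {a b} ha hb := by
    show σ (a + b) = a + b
    rw [map_add, show σ a = a from ha, show σ b = b from hb]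
  zero_mem' := map_zero σ
  neg_mem' {a} ha := by
    show σ (-a) = -a
    rw [map_neg, show σ a = a from ha]
  inv_mem' a ha := by
    show σ (a⁻¹) = a⁻¹
    rw [map_inv₀, show σ a = a from ha]

theorem mem_fixF {σ : F ≃+* F} {a : F} : a ∈ fixF σ ↔ σ a = a := Iff.rfl

theorem card_fixF [Finite F] (σ : F ≃+* F) : Nat.card F = Nat.card (fixF σ) ^ orderOf σ := by
  haveI : Finite (F ≃+* F) := Finite.of_injective (fun τ : F ≃+* F => (τ : F → F)) DFunLike.coe_injective
  have h1 : fixF σ = FixedPoints.subfield (Subgroup.zpowers σ) F := by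
    ext a
    rw [mem_fixF]
    constructor
    · intro h
      rintro ⟨_, k, rfl⟩
      show (σ ^ k : F ≃+* F) a = a
      have : σ ∈ MulAction.stabilizer (F ≃+* F) a := h
      exact (MulAction.stabilizer (F ≃+* F) a).zpow_mem this k
    · intro h
      exact h ⟨σ, Subgroup.mem_zpowers σ⟩
  rw [h1]
  letI : Fintype (Subgroup.zpowers σ) := Fintype.ofFinite _
  have h2 := FixedPoints.finrank_eq_card (Subgroup.zpowers σ) F
  have h3 := Module.natCard_eq_pow_finrank (K := FixedPoints.subfield (Subgroup.zpowers σ) F) (V := F)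
  rw [h3, h2, ← Nat.card_eq_fintype_card, Nat.card_zpowers]

end FixedField

end CfsgLib.H9027
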