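import Cfsg.Agent.LibAutPSL27j
import Cfsg.Agent.LibH9027
import Cfsg.Agent.LibHerm27

set_option autoImplicit false

/-! Field and graph-field automorphisms of prime order of `PSL_n(F)`. -/

namespace CfsgLib.AutPSL27

open Matrix

variable {F : Type*} [Field F] {n : ℕ}

/-- entrywise field automorphism on `GL` -/
noncomputable abbrev gm (σ : F ≃+* F) : GL (Fin n) F →* GL (Fin n) F := Matrix.GeneralLinearGroup.map (σ : F →+* F)

theorem coe_gm (σ : F ≃+* F) (g : GL (Fin n) F) : ((gm σ g : GL (Fin n) F) : Matrix (Fin n) (Fin n) F) = (g : Matrix (Fin n) (Fin n) F).map σ := rfl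

theorem gm_mulVec (σ : F ≃+* F) (M : Matrix (Fin n) (Fin n) F) (v : Fin n → F) : (M.map σ) *ᵥ (σ ∘ v) = σ ∘ (M *ᵥ v) := by
  ext i
  simp [Matrix.mulVec, dotProduct, map_sum]

/-- the norm of a matrix -/
noncomputable def nrm (σ : F ≃+* F) (g : GL (Fin n) F) : ℕ → GL (Fin n) F
  | 0 => 1
  | (k + 1) => g * gm σ (nrm σ g k)

theorem semi_pow (σ : F ≃+* F) (g : GL (Fin n) F) (k : ℕ) : (cj g * fl σ) ^ k = cj (nrm σ g k) * fl (σ ^ k) := by
  induction k with
  | zero => simp [nrm]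
  | succ k ih =>
    rw [pow_succ', ih, nrm, map_mul cj, pow_succ', map_mul fl]
    calc cj g * fl σ * (cj (nrm σ g k) * fl (σ ^ k)) = cj g * (fl σ * cj (nrm σ g k)) * fl (σ ^ k) := by simp only [mul_assoc]
      _ = _ := by rw [fl_mul_cj]; simp only [mul_assoc]

theorem iter_nrm (σ : F ≃+* F) (g : GL (Fin n) F) (k : ℕ) (v : Fin n → F) :
    (fun v : Fin n → F => (g : Matrix (Fin n) (Fin n) F) *ᵥ (σ ∘ v))^[k] v =
      (nrm σ g k : Matrix (Fin n) (Fin n) F) *ᵥ ((σ ^ k : F ≃+* F) ∘ v) := by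
  induction k with
  | zero => ext i; simp [nrm]
  | succ k ih =>
    rw [Function.iterate_succ_apply', ih, nrm, Units.val_mul, coe_gm, ← mulVec_mulVec]
    congr 1
    rw [← gm_mulVec]
    congr 1
    ext i
    simp only [Function.comp_apply]
    rw [pow_succ']; rfl

theorem center_scalar {g : GL (Fin n) F} (hn : 0 < n) (hg : g ∈ Subgroup.center (GL (Fin n) F)) :
    ∃ c : F, c ≠ 0 ∧ ∀ v : Fin n → F, (g : Matrix (Fin n) (Fin n) F) *ᵥ v = c • v := by
  rw [Matrix.GeneralLinearGroup.center_eq_range_scalar] at hg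
  obtain ⟨c, rfl⟩ := hg
  refine ⟨c, c.ne_zero, fun v => ?_⟩
  show (Matrix.scalar (Fin n) (c : F)) *ᵥ v = _
  rw [scalar_apply]
  ext i
  rw [mulVec_diagonal]; rfl

theorem eq_of_mulVec_single {A B : Matrix (Fin n) (Fin n) F} (h : ∀ i, A *ᵥ Pi.single i 1 = B *ᵥ Pi.single i 1) : A = B := by
  ext a b
  have := congrFun (h b) a
  rw [mulVec_single_one, mulVec_single_one] at this
  exact this

theorem comp_single (σ : F ≃+* F) (i : Fin n) : (σ ∘ (Pi.single i 1 : Fin n → F)) = Pi.single i 1 := by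
  ext j
  by_cases hj : j = i
  · subst hj; simp
  · simp [hj]

theorem scalar_mem_center (c : Fˣ) : Matrix.GeneralLinearGroup.scalar (Fin n) c ∈ Subgroup.center (GL (Fin n) F) := by
  rw [Matrix.GeneralLinearGroup.center_eq_range_scalar]
  exact ⟨c, rfl⟩

/-- Lang's theorem for `PGL_n`. -/
theorem lang_PSL [Finite F] (p : ℕ) [Fact p.Prime] [CharP F p] (hn : 2 ≤ n) (g : GL (Fin n) F) (σ : F ≃+* F) {r : ℕ}
    (hr : 0 < r) (ho : orderOf σ = r)
    (h : (lft (cj g * fl σ) : MulAut (Matrix.ProjectiveSpecialLinearGroup (Fin n) F)) ^ r = 1) :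
    ∃ k : GL (Fin n) F, (lft (cj g * fl σ) : MulAut (Matrix.ProjectiveSpecialLinearGroup (Fin n) F)) =
      lft (cj k) * lft (fl σ) * (lft (cj k))⁻¹ := by
  have hσr : σ ^ r = 1 := by rw [← ho, pow_orderOf_eq_one]
  rw [← map_pow, semi_pow] at h
  obtain ⟨hc, -⟩ := unique_one p hn h
  obtain ⟨c, hc0, hc⟩ := center_scalar (by omega) hc
  haveI : Nonempty (Fin n) := ⟨⟨0, by omega⟩⟩
  obtain ⟨l, k, hl, -, hk⟩ := CfsgLib.H9027.lang_semilinear σ r hr ho
    (fun v : Fin n → F => (g : Matrix (Fin n) (Fin n) F) *ᵥ (σ ∘ v)) (by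
      intro u v
      rw [← mulVec_add]
      congr 1
      ext i; simp) (by
      intro a v
      rw [← mulVec_smul]
      congr 1
      ext i; simp) c hc0 (by
      intro v
      rw [iter_nrm, hc, hσr]; rfl)
  have h1 : g * gm σ k = Matrix.GeneralLinearGroup.scalar (Fin n) (Units.mk0 l hl) * k := by
    apply Units.ext
    rw [Units.val_mul, Units.val_mul]
    apply eq_of_mulVec_single
    intro i
    rw [← mulVec_mulVec, ← mulVec_mulVec]
    have h2 : (g : Matrix (Fin n) (Fin n) F) *ᵥ (σ ∘ ((k : Matrix (Fin n) (Fin n) F) *ᵥ Pi.single i 1)) =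
      l • ((k : Matrix (Fin n) (Fin n) F) *ᵥ Pi.single i 1) := hk i
    rw [← gm_mulVec, comp_single] at h2
    rw [coe_gm, h2]
    show _ = (Matrix.scalar (Fin n) l) *ᵥ _
    rw [scalar_apply]
    ext j
    rw [mulVec_diagonal]; rfl
  have h2 : cj g * cj (gm σ k) = cj k := by
    rw [← map_mul, h1, map_mul, cj_center (scalar_mem_center _), one_mul]
  refine ⟨k, ?_⟩
  rw [eq_mul_inv_iff_mul_eq, ← map_mul, ← map_mul]
  congr 1
  rw [mul_assoc, fl_mul_cj, ← mul_assoc]
  show cj g * cj (gm σ k) * fl σ = _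
  rw [h2]

/-- `Inndiag` is normal -/
theorem conj_inndiag [Finite F] (p : ℕ) [Fact p.Prime] [CharP F p] (hn : 2 ≤ n)
    (α : MulAut (Matrix.ProjectiveSpecialLinearGroup (Fin n) F)) (g : GL (Fin n) F) :
    ∃ g' : GL (Fin n) F, α * lft (cj g) * α⁻¹ = lft (cj g') := by
  obtain ⟨h, σ, hα | ⟨-, hα⟩⟩ := main_all p hn α
  · refine ⟨h * gm σ g * h⁻¹, ?_⟩
    rw [hα, mul_inv_eq_iff_eq_mul, ← map_mul, ← map_mul]
    congr 1
    rw [mul_assoc, fl_mul_cj, map_mul cj, map_mul cj]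
    calc cj h * (cj (gm σ g) * fl σ) = cj h * cj (gm σ g) * (cj h⁻¹ * cj h) * fl σ := by
          rw [← map_mul cj h⁻¹ h, inv_mul_cancel, map_one, mul_one]; simp only [mul_assoc]
      _ = _ := by simp only [mul_assoc]
  · refine ⟨h * gm σ (itGL g) * h⁻¹, ?_⟩
    rw [hα, mul_inv_eq_iff_eq_mul, ← map_mul, ← map_mul]
    congr 1
    rw [mul_assoc _ it, it_mul_cj, ← mul_assoc, mul_assoc (cj h), fl_mul_cj, map_mul cj, map_mul cj]
    calc cj h * (cj (gm σ (itGL g)) * fl σ) * it = cj h * cj (gm σ (itGL g)) * (cj h⁻¹ * cj h) * fl σ * it := by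
          rw [← map_mul cj h⁻¹ h, inv_mul_cancel, map_one, mul_one]; simp only [mul_assoc]
      _ = _ := by simp only [mul_assoc]

/-- Hermitian matrices are congruent to the identity. -/
theorem herm_matrix [Finite F] {σ : F ≃+* F} (hσ : σ ≠ RingEquiv.refl F) (hσ2 : ∀ a, σ (σ a) = a)
    (g : GL (Fin n) F) (hg : ((g : Matrix (Fin n) (Fin n) F).map σ)ᵀ = g) :
    ∃ h : GL (Fin n) F, (g : Matrix (Fin n) (Fin n) F) = (h : Matrix (Fin n) (Fin n) F) * ((h : Matrix (Fin n) (Fin n) F).map σ)ᵀ := by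
  classical
  have hgij : ∀ i j, σ ((g : Matrix (Fin n) (Fin n) F) i j) = (g : Matrix (Fin n) (Fin n) F) j i := by
    intro i j
    have := congrFun (congrFun hg j) i
    exact this
  -- the Hermitian form `B u v = (σ u) g v`
  let B : (Fin n → F) →ₛₗ[(σ : F →+* F)] (Fin n → F) →ₗ[F] F :=
    { toFun := fun u =>
        { toFun := fun v => (σ ∘ u) ⬝ᵥ ((g : Matrix (Fin n) (Fin n) F) *ᵥ v)
          map_add' := fun v w => by rw [mulVec_add, dotProduct_add]
          map_smul' := fun c v => by rw [mulVec_smul, dotProduct_smul]; rfl }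
      map_add' := fun u v => by
        apply LinearMap.ext
        intro w
        show (σ ∘ (u + v)) ⬝ᵥ _ = (σ ∘ u) ⬝ᵥ _ + (σ ∘ v) ⬝ᵥ _
        rw [← add_dotProduct]
        congr 1
        ext i; simp
      map_smul' := fun c v => by
        apply LinearMap.ext
        intro w
        show (σ ∘ (c • v)) ⬝ᵥ _ = σ c • ((σ ∘ v) ⬝ᵥ _)
        rw [← smul_dotProduct]
        congr 1
        ext i; simp }
  have hB : ∀ u v, B u v = (σ ∘ u) ⬝ᵥ ((g : Matrix (Fin n) (Fin n) F) *ᵥ v) := fun _ _ => rfl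
  have hS : ∀ x y, (σ : F →+* F) (B x y) = B y x := by
    intro x y
    rw [hB, hB]
    show σ ((σ ∘ x) ⬝ᵥ ((g : Matrix (Fin n) (Fin n) F) *ᵥ y)) = _
    simp only [dotProduct, Matrix.mulVec, map_sum, map_mul, Function.comp_apply, hσ2, hgij, Finset.mul_sum]
    rw [Finset.sum_comm]
    refine Finset.sum_congr rfl fun i _ => Finset.sum_congr rfl fun j _ => ?_
    ring
  have hnd : ∀ v : Fin n → F, v ≠ 0 → ∃ w, B v w ≠ 0 := by
    intro v hv
    by_contra hcon
    push Not at hcon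
    apply hv
    have h1 : (σ ∘ v) ᵥ* (g : Matrix (Fin n) (Fin n) F) = 0 := by
      ext i
      have := hcon (Pi.single i 1)
      rw [hB, dotProduct_mulVec, dotProduct_single_one] at this
      exact this
    have h2 : σ ∘ v = 0 := by
      have := congrArg (fun x => x ᵥ* ((g⁻¹ : GL (Fin n) F) : Matrix (Fin n) (Fin n) F)) h1
      simp only [vecMul_vecMul, Units.mul_inv, vecMul_one, zero_vecMul] at this
      exact this
    ext i
    have := congrFun h2 i
    simpa using this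
  obtain ⟨b, hb⟩ := CfsgLib.Herm27.exists_orthonormal_basis (σ := (σ : F →+* F)) (by
    intro h
    apply hσ
    ext a
    exact DFunLike.congr_fun h a) hσ2 B hS hnd
  have hfr : Module.finrank F (Fin n → F) = n := by rw [Module.finrank_fin_fun]
  -- matrix of the basis
  let c : Fin n → (Fin n → F) := fun i => b (Fin.cast hfr.symm i)
  have hc : ∀ i j, B (c i) (c j) = if i = j then 1 else 0 := by
    intro i j
    rw [hb]
    by_cases hij : i = j
    · rw [if_pos hij, if_pos (by rw [hij])]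
    · rw [if_neg hij, if_neg]
      intro h
      apply hij
      exact Fin.ext (by simpa using congrArg Fin.val h)
  let M : Matrix (Fin n) (Fin n) F := fun i j => c j i
  have hM : (M.map σ)ᵀ * (g : Matrix (Fin n) (Fin n) F) * M = 1 := by
    ext i j
    rw [Matrix.one_apply, ← hc i j, hB, Matrix.mul_assoc]
    simp only [Matrix.mul_apply, transpose_apply, map_apply, dotProduct, Matrix.mulVec, Function.comp_apply]
    rfl
  have hM2 : ((M.map σ)ᵀ * (g : Matrix (Fin n) (Fin n) F)) * M = 1 := hM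
  have hM3 : M * ((M.map σ)ᵀ * (g : Matrix (Fin n) (Fin n) F)) = 1 := mul_eq_one_comm.1 hM2
  let Mg : GL (Fin n) F := ⟨M, (M.map σ)ᵀ * (g : Matrix (Fin n) (Fin n) F), hM3, hM2⟩
  -- g = (M σ)ᵀ⁻¹ M⁻¹
  let N : GL (Fin n) F := itGL (gm σ Mg)
  refine ⟨N, ?_⟩
  have e1 : (N : Matrix (Fin n) (Fin n) F) * (M.map σ)ᵀ = 1 := by
    have h1 : (N : Matrix (Fin n) (Fin n) F) = (((gm σ Mg)⁻¹ : GL (Fin n) F) : Matrix (Fin n) (Fin n) F)ᵀ := rfl
    have h2 : (M.map σ) = ((gm σ Mg : GL (Fin n) F) : Matrix (Fin n) (Fin n) F) := rfl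
    rw [h1, h2, ← transpose_mul, Units.mul_inv, transpose_one]
  have e2 : M * ((N : Matrix (Fin n) (Fin n) F).map σ)ᵀ = 1 := by
    have h3 := congrArg (fun A : Matrix (Fin n) (Fin n) F => ((A.map (σ : F →+* F))ᵀ)) e1
    simp only [Matrix.map_mul, transpose_mul] at h3
    have h4 : ((((M.map σ)ᵀ).map (σ : F →+* F))ᵀ : Matrix (Fin n) (Fin n) F) = M := by
      ext i j
      exact hσ2 _
    rw [h4] at h3
    have h5 : ((1 : Matrix (Fin n) (Fin n) F).map (σ : F →+* F))ᵀ = 1 := by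
      rw [Matrix.map_one _ (map_zero _) (map_one _), transpose_one]
    rw [h5] at h3
    exact h3
  calc (g : Matrix (Fin n) (Fin n) F) = ((N : Matrix (Fin n) (Fin n) F) * (M.map σ)ᵀ) * g * (M * ((N : Matrix (Fin n) (Fin n) F).map σ)ᵀ) := by
        rw [e1, e2, one_mul, mul_one]
    _ = (N : Matrix (Fin n) (Fin n) F) * ((M.map σ)ᵀ * g * M) * ((N : Matrix (Fin n) (Fin n) F).map σ)ᵀ := by
        simp only [Matrix.mul_assoc]
    _ = _ := by rw [hM, mul_one]


/-! ### coset conjugacy (S2697) -/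

theorem fl_pow_eq_one (p : ℕ) [Fact p.Prime] [CharP F p] (hn : 2 ≤ n) {σ : F ≃+* F} {k : ℕ}
    (h : (lft (fl σ) : MulAut (Matrix.ProjectiveSpecialLinearGroup (Fin n) F)) ^ k = 1) : σ ^ k = 1 := by
  rw [← map_pow, ← map_pow] at h
  exact (unique_one (g := 1) p hn (by rw [map_one, one_mul]; exact h)).2

theorem lang_herm [Finite F] (p : ℕ) [Fact p.Prime] [CharP F p] (hn : 2 ≤ n) (g : GL (Fin n) F) (σ : F ≃+* F)
    (hσ : σ ≠ RingEquiv.refl F) (hσ2 : ∀ a, σ (σ a) = a)
    (h : (lft (cj g * fl σ * it) : MulAut (Matrix.ProjectiveSpecialLinearGroup (Fin n) F)) ^ 2 = 1) :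
    ∃ k : GL (Fin n) F, (lft (cj g * fl σ * it) : MulAut (Matrix.ProjectiveSpecialLinearGroup (Fin n) F)) =
      lft (cj k) * lft (fl σ * it) * (lft (cj k))⁻¹ := by
  have hσσ : σ * σ = 1 := by
    ext a
    exact hσ2 a
  have h1 : (cj g * fl σ * it) ^ 2 = cj (g * gm σ (itGL g)) := by
    rw [sq]
    calc cj g * fl σ * it * (cj g * fl σ * it) = cj g * fl σ * (it * cj g) * fl σ * it := by simp only [mul_assoc]
      _ = cj g * (fl σ * cj (itGL g)) * (it * fl σ) * it := by rw [it_mul_cj]; simp only [mul_assoc]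
      _ = cj g * (cj (gm σ (itGL g)) * fl σ) * (fl σ * it) * it := by rw [fl_mul_cj, it_mul_fl]
      _ = cj g * cj (gm σ (itGL g)) * (fl σ * fl σ) * (it * it) := by simp only [mul_assoc]
      _ = _ := by rw [it_mul_it, ← map_mul fl, hσσ, map_one, mul_one, mul_one, map_mul cj]
  rw [← map_pow, h1] at h
  obtain ⟨hc, -⟩ := unique_one (g := g * gm σ (itGL g)) (σ := 1) p hn (by rw [map_one fl, mul_one]; exact h)
  obtain ⟨c, hc0, hc⟩ := center_scalar (by omega) hc
  have hgc : (g : Matrix (Fin n) (Fin n) F) = c • ((g : Matrix (Fin n) (Fin n) F).map σ)ᵀ := by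
    have e1 : (g : Matrix (Fin n) (Fin n) F) * (((gm σ g)⁻¹ : GL (Fin n) F) : Matrix (Fin n) (Fin n) F)ᵀ = c • (1 : Matrix (Fin n) (Fin n) F) := by
      apply eq_of_mulVec_single
      intro i
      have := hc (Pi.single i 1)
      rw [smul_mulVec, one_mulVec, ← this]
      congr 1
    have e2 : (((gm σ g)⁻¹ : GL (Fin n) F) : Matrix (Fin n) (Fin n) F)ᵀ * ((g : Matrix (Fin n) (Fin n) F).map σ)ᵀ = 1 := by
      rw [← transpose_mul]
      have : (g : Matrix (Fin n) (Fin n) F).map σ = ((gm σ g : GL (Fin n) F) : Matrix (Fin n) (Fin n) F) := rfl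
      rw [this, Units.mul_inv, transpose_one]
    calc (g : Matrix (Fin n) (Fin n) F) = (g : Matrix (Fin n) (Fin n) F) * ((((gm σ g)⁻¹ : GL (Fin n) F) : Matrix (Fin n) (Fin n) F)ᵀ * ((g : Matrix (Fin n) (Fin n) F).map σ)ᵀ) := by
          rw [e2, mul_one]
      _ = _ := by rw [← mul_assoc, e1, smul_mul, one_mul]
  have hgij : ∀ i j, (g : Matrix (Fin n) (Fin n) F) i j = c * σ ((g : Matrix (Fin n) (Fin n) F) j i) := by
    intro i j
    exact congrFun (congrFun hgc i) j
  obtain ⟨i, j, hij⟩ : ∃ i j, (g : Matrix (Fin n) (Fin n) F) i j ≠ 0 := by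
    by_contra hcon
    push Not at hcon
    have : (g : Matrix (Fin n) (Fin n) F) *ᵥ Pi.single ⟨0, by omega⟩ 1 = 0 := by
      ext a
      rw [mulVec_single_one]
      exact hcon _ _
    have h2 : ((g⁻¹ : GL (Fin n) F) : Matrix (Fin n) (Fin n) F) *ᵥ ((g : Matrix (Fin n) (Fin n) F) *ᵥ Pi.single ⟨0, by omega⟩ 1) =
        Pi.single ⟨0, by omega⟩ 1 := by
      rw [mulVec_mulVec, Units.inv_mul, one_mulVec]
    rw [this, mulVec_zero] at h2
    have h3 := congrFun h2 ⟨0, by omega⟩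
    simp at h3
  have hcN : c * σ c = 1 := by
    have h2 := hgij i j
    rw [hgij j i, map_mul, hσ2, ← mul_assoc] at h2
    exact mul_right_cancel₀ hij (by rw [one_mul]; exact h2.symm)
  -- `c = y / σ y`
  have hord : orderOf σ = 2 := by
    apply orderOf_eq_prime
    · rw [sq]; exact hσσ
    · exact hσ
  obtain ⟨y, hy, hcy⟩ := CfsgLib.H9027.exists_unit_eq σ 2 (by norm_num) (CfsgLib.H9027.pow_inj_of_order hord)
    (by rw [sq]; exact hσσ) c (by
      rw [Finset.prod_range_succ, Finset.prod_range_one, pow_zero, pow_one]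
      exact hcN)
  -- `y⁻¹ g` is Hermitian
  set u : Fˣ := Units.mk0 y hy with hu
  set g' : GL (Fin n) F := Matrix.GeneralLinearGroup.scalar (Fin n) u⁻¹ * g with hg'
  have hg'ij : ∀ i j, (g' : Matrix (Fin n) (Fin n) F) i j = y⁻¹ * (g : Matrix (Fin n) (Fin n) F) i j := by
    intro i j
    show ((Matrix.scalar (Fin n) ((u⁻¹ : Fˣ) : F)) * (g : Matrix (Fin n) (Fin n) F)) i j = _
    rw [scalar_apply, diagonal_mul]
    simp [hu]
  have hσy : σ y ≠ 0 := by
    intro h
    exact hy ((map_eq_zero_iff σ σ.injective).1 h)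
  obtain ⟨k, hk⟩ := herm_matrix hσ hσ2 g' (by
    ext i j
    show σ ((g' : Matrix (Fin n) (Fin n) F) j i) = (g' : Matrix (Fin n) (Fin n) F) i j
    have h5 : y⁻¹ * c = (σ y)⁻¹ := by
      apply eq_inv_of_mul_eq_one_left; rw [mul_assoc, hcy, inv_mul_cancel₀ hy]
    rw [hg'ij, hg'ij, hgij i j, map_mul, map_inv₀, ← mul_assoc, h5])
  have hcg : cj g = cj k * cj (itGL (gm σ k))⁻¹ := by
    have e1 : cj g' = cj g := by
      rw [hg', map_mul, cj_center (scalar_mem_center _), one_mul]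
    rw [← e1, ← map_mul]
    congr 1
    apply Units.ext
    rw [hk]
    rfl
  refine ⟨k, ?_⟩
  rw [eq_mul_inv_iff_mul_eq, ← map_mul, ← map_mul]
  congr 1
  calc cj g * fl σ * it * cj k = cj g * (fl σ * cj (itGL k)) * it := by rw [mul_assoc _ it, it_mul_cj]; simp only [mul_assoc]
    _ = cj k * (cj (itGL (gm σ k))⁻¹ * cj (gm σ (itGL k))) * fl σ * it := by rw [fl_mul_cj, hcg]; simp only [mul_assoc]
    _ = cj k * (fl σ * it) := by
        have : gm σ (itGL k) = itGL (gm σ k) := by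
          apply Units.ext
          show (((k⁻¹ : GL (Fin n) F) : Matrix (Fin n) (Fin n) F)ᵀ).map σ = (((gm σ k)⁻¹ : GL (Fin n) F) : Matrix (Fin n) (Fin n) F)ᵀ
          rw [← map_inv]; rfl
        rw [this, ← map_mul, inv_mul_cancel, map_one, mul_one, mul_assoc]

end CfsgLib.AutPSL27
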