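import Cfsg.Agent.EqBase

set_option autoImplicit false

/-! Counting the classes into which a class splits; indices in cyclic groups. -/

namespace CfsgLib.Split27

open Cfsg

theorem splitCount_eq {A Γ D : Type*} [Group A] [Group Γ] [CommGroup D] (ρ : Γ →* A) (T : Subgroup A) (x : A) (d : Γ →* D)
    (hd : Function.Surjective d) (P : Subgroup D) (hT : ∀ g, ρ g ∈ T ↔ d g ∈ P) (hTρ : T ≤ ρ.range) (C : Subgroup D)
    (hC : ∀ z : D, z ∈ C ↔ ∃ c : Γ, ρ c * x = x * ρ c ∧ ∃ t ∈ P, z = d c * t) :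
    splitClassCount ρ.range T x = C.index := by
  classical
  have hy : ∀ y : {y : A // IsConjUnder ρ.range x y}, ∃ g : Γ, y.1 = ρ g * x * (ρ g)⁻¹ := by
    rintro ⟨y, _, ⟨g, rfl⟩, h⟩
    exact ⟨g, h⟩
  choose g hg using hy
  have key : ∀ (y z : A) (a b : Γ), y = ρ a * x * (ρ a)⁻¹ → z = ρ b * x * (ρ b)⁻¹ →
      (IsConjUnder T y z ↔ (d a)⁻¹ * d b ∈ C) := by
    intro y z a b hya hzb
    rw [hC]
    constructor
    · rintro ⟨t, ht, h⟩
      obtain ⟨τ, rfl⟩ := hTρ ht
      refine ⟨(τ * a)⁻¹ * b, ?_, d τ, (hT τ).1 ht, ?_⟩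
      · have h1 : ρ τ * (ρ a * x * (ρ a)⁻¹) * (ρ τ)⁻¹ = ρ b * x * (ρ b)⁻¹ := by rw [← hya, ← hzb, h]
        have h2 : ρ b * x = ρ τ * (ρ a * x * (ρ a)⁻¹) * (ρ τ)⁻¹ * ρ b := by rw [h1]; group
        rw [map_mul, map_inv, map_mul]
        calc (ρ τ * ρ a)⁻¹ * ρ b * x = (ρ τ * ρ a)⁻¹ * (ρ b * x) := by group
          _ = x * ((ρ τ * ρ a)⁻¹ * ρ b) := by rw [h2]; group
      · rw [map_mul, map_inv, map_mul, mul_inv_rev, mul_assoc, mul_assoc, mul_comm (d b), ← mul_assoc (d τ)⁻¹, inv_mul_cancel, one_mul]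
    · rintro ⟨c, hc, t, ht, h⟩
      have h1 : d (b * (a * c)⁻¹) = t := by
        have : d b = d a * (d c * t) := by rw [← h, mul_inv_cancel_left]
        rw [map_mul, map_inv, map_mul, this, ← mul_assoc, mul_comm (d a * d c) t, mul_inv_cancel_right]
      refine ⟨ρ (b * (a * c)⁻¹), (hT _).2 (by rw [h1]; exact ht), ?_⟩
      have hc' : (ρ c)⁻¹ * x * ρ c = x := by rw [mul_assoc, ← hc, inv_mul_cancel_left]
      rw [hzb, hya, map_mul, map_inv, map_mul]
      calc ρ b * x * (ρ b)⁻¹ = ρ b * ((ρ c)⁻¹ * x * ρ c) * (ρ b)⁻¹ := by rw [hc']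
        _ = _ := by group
  let f : {y : A // IsConjUnder ρ.range x y} → D ⧸ C := fun y => QuotientGroup.mk (d (g y))
  have hf : ∀ y z, IsConjUnder T y.1 z.1 ↔ f y = f z := by
    intro y z
    rw [key _ _ _ _ (hg y) (hg z)]
    exact QuotientGroup.eq.symm
  let F : Quot (fun y z : {y : A // IsConjUnder ρ.range x y} => IsConjUnder T y.1 z.1) → D ⧸ C :=
    Quot.lift f (fun y z h => (hf y z).1 h)
  have hbij : Function.Bijective F := by
    constructor
    · intro a b
      induction a using Quot.ind with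
      | mk a =>
        induction b using Quot.ind with
        | mk b =>
          intro h
          exact Quot.sound ((hf a b).2 h)
    · intro z
      induction z using QuotientGroup.induction_on with
      | H z =>
        obtain ⟨c, hc⟩ := hd z
        let y : {y : A // IsConjUnder ρ.range x y} := ⟨ρ c * x * (ρ c)⁻¹, ρ c, ⟨c, rfl⟩, rfl⟩
        refine ⟨Quot.mk _ y, ?_⟩
        show (QuotientGroup.mk (d (g y)) : D ⧸ C) = QuotientGroup.mk z
        rw [QuotientGroup.eq, ← hc, ← key _ _ _ _ (hg y) (show y.1 = _ from rfl)]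
        exact ⟨1, T.one_mem, by group⟩
  exact Nat.card_congr (Equiv.ofBijective F hbij)

theorem splitCount_conj {A : Type*} [Group A] (G T : Subgroup A) (x α : A) (hG : ∀ g ∈ G, α * g * α⁻¹ ∈ G)
    (hG' : ∀ g ∈ G, α⁻¹ * g * α ∈ G) (hT : ∀ g ∈ T, α * g * α⁻¹ ∈ T) (hT' : ∀ g ∈ T, α⁻¹ * g * α ∈ T) :
    splitClassCount G T x = splitClassCount G T (α * x * α⁻¹) := by
  have e1 : ∀ y, IsConjUnder G x y ↔ IsConjUnder G (α * x * α⁻¹) (α * y * α⁻¹) := by
    intro y
    constructor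
    · rintro ⟨g, hg, rfl⟩
      exact ⟨_, hG g hg, by group⟩
    · rintro ⟨g, hg, h⟩
      refine ⟨_, hG' g hg, ?_⟩
      have : y = α⁻¹ * (α * y * α⁻¹) * α := by group
      rw [this, h]; group
  have e2 : ∀ y z, IsConjUnder T y z ↔ IsConjUnder T (α * y * α⁻¹) (α * z * α⁻¹) := by
    intro y z
    constructor
    · rintro ⟨g, hg, rfl⟩
      exact ⟨_, hT g hg, by group⟩
    · rintro ⟨g, hg, h⟩
      refine ⟨_, hT' g hg, ?_⟩
      have : z = α⁻¹ * (α * z * α⁻¹) * α := by group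
      rw [this, h]; group
  let e : {y : A // IsConjUnder G x y} ≃ {y : A // IsConjUnder G (α * x * α⁻¹) y} :=
    Equiv.subtypeEquiv (MulAut.conj α).toEquiv e1
  exact Nat.card_congr (Quot.congr e (fun y z => e2 y.1 z.1))

theorem centr_conj {A : Type*} [Group A] (G : Subgroup A) (x α : A) (hG : ∀ g ∈ G, α * g * α⁻¹ ∈ G)
    (hG' : ∀ g ∈ G, α⁻¹ * g * α ∈ G) :
    Nonempty (↥(G ⊓ Subgroup.centralizer {x}) ≃* ↥(G ⊓ Subgroup.centralizer {α * x * α⁻¹})) := by
  have h : (G ⊓ Subgroup.centralizer {x}).map (MulAut.conj α).toMonoidHom = G ⊓ Subgroup.centralizer {α * x * α⁻¹} := by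
    ext y
    constructor
    · rintro ⟨g, ⟨hg1, hg2⟩, rfl⟩
      refine ⟨hG g hg1, Subgroup.mem_centralizer_singleton_iff.2 ?_⟩
      have h2 : g * x = x * g := Subgroup.mem_centralizer_singleton_iff.1 hg2
      show α * g * α⁻¹ * (α * x * α⁻¹) = α * x * α⁻¹ * (α * g * α⁻¹)
      calc α * g * α⁻¹ * (α * x * α⁻¹) = α * (g * x) * α⁻¹ := by group
        _ = α * x * α⁻¹ * (α * g * α⁻¹) := by rw [h2]; group
    · rintro ⟨hy1, hy2⟩
      have h2 : y * (α * x * α⁻¹) = α * x * α⁻¹ * y := Subgroup.mem_centralizer_singleton_iff.1 hy2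
      refine ⟨α⁻¹ * y * α, ⟨hG' y hy1, ?_⟩, ?_⟩
      · show α⁻¹ * y * α ∈ Subgroup.centralizer {x}
        rw [Subgroup.mem_centralizer_singleton_iff]
        calc α⁻¹ * y * α * x = α⁻¹ * (y * (α * x * α⁻¹)) * α := by group
          _ = x * (α⁻¹ * y * α) := by rw [h2]; group
      · show α * (α⁻¹ * y * α) * α⁻¹ = y
        group
  exact ⟨((G ⊓ Subgroup.centralizer {x}).equivMapOfInjective _ (MulAut.conj α).injective).trans (MulEquiv.subgroupCongr h)⟩

/-! ### cyclic groups -/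

theorem le_pow_range {C : Type*} [CommGroup C] [Finite C] [IsCyclic C] (H : Subgroup C) {g : ℕ} (hg : g ∣ H.index) :
    H ≤ (powMonoidHom g : C →* C).range := by
  have h1 : (powMonoidHom H.index : C →* C).range ≤ H := by
    rintro _ ⟨x, rfl⟩
    exact H.pow_index_mem x
  have h2 : (powMonoidHom H.index : C →* C).range.index = H.index := by
    rw [IsCyclic.index_powMonoidHom_range]
    exact Nat.gcd_eq_right H.index_dvd_card
  have h3 : (powMonoidHom H.index : C →* C).range = H := by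
    apply Subgroup.eq_of_le_of_card_ge h1
    have e1 := Subgroup.card_mul_index (powMonoidHom H.index : C →* C).range
    have e2 := Subgroup.card_mul_index H
    rw [h2, ← e2] at e1
    exact (Nat.eq_of_mul_eq_mul_right (Nat.pos_of_ne_zero Subgroup.index_ne_zero_of_finite) e1).ge
  rw [← h3]
  rintro _ ⟨x, rfl⟩
  obtain ⟨k, hk⟩ := hg
  refine ⟨x ^ k, ?_⟩
  show (x ^ k) ^ g = x ^ H.index
  rw [hk, ← pow_mul, mul_comm]

theorem index_sup {C : Type*} [CommGroup C] [Finite C] [IsCyclic C] (H K : Subgroup C) :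
    (H ⊔ K).index = Nat.gcd H.index K.index := by
  apply Nat.dvd_antisymm
  · exact Nat.dvd_gcd (Subgroup.index_dvd_of_le le_sup_left) (Subgroup.index_dvd_of_le le_sup_right)
  · have h1 : H ⊔ K ≤ (powMonoidHom (Nat.gcd H.index K.index) : C →* C).range :=
      sup_le (le_pow_range H (Nat.gcd_dvd_left _ _)) (le_pow_range K (Nat.gcd_dvd_right _ _))
    have h2 := Subgroup.index_dvd_of_le h1
    rw [IsCyclic.index_powMonoidHom_range, Nat.gcd_eq_right] at h2
    · exact h2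
    · exact (Nat.gcd_dvd_left _ _).trans H.index_dvd_card

end CfsgLib.Split27
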