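import Cfsg.Agent.LibAutPSL27k
import Cfsg.Agent.LibSplit27

set_option autoImplicit false

/-! Centralizers of field automorphisms of `PSL_n(F)`. -/

namespace CfsgLib.AutPSL27

open Matrix CfsgLib.H9027

variable {F : Type*} [Field F] {n : ℕ}

theorem exists_entry_ne (hn : 0 < n) (g : GL (Fin n) F) : ∃ i j, (g : Matrix (Fin n) (Fin n) F) i j ≠ 0 := by
  by_contra hcon
  push Not at hcon
  have : (g : Matrix (Fin n) (Fin n) F) *ᵥ Pi.single ⟨0, hn⟩ 1 = 0 := by
    ext a
    rw [mulVec_single_one]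
    exact hcon _ _
  have h2 : ((g⁻¹ : GL (Fin n) F) : Matrix (Fin n) (Fin n) F) *ᵥ ((g : Matrix (Fin n) (Fin n) F) *ᵥ Pi.single ⟨0, hn⟩ 1) =
      Pi.single ⟨0, hn⟩ 1 := by
    rw [mulVec_mulVec, Units.inv_mul, one_mulVec]
  rw [this, mulVec_zero] at h2
  have h3 := congrFun h2 ⟨0, hn⟩
  simp at h3

theorem scalar_mul_apply (u : Fˣ) (g : GL (Fin n) F) (i j : Fin n) :
    ((Matrix.GeneralLinearGroup.scalar (Fin n) u * g : GL (Fin n) F) : Matrix (Fin n) (Fin n) F) i j =
      (u : F) * (g : Matrix (Fin n) (Fin n) F) i j := by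
  show ((Matrix.scalar (Fin n) (u : F)) * (g : Matrix (Fin n) (Fin n) F)) i j = _
  rw [scalar_apply, diagonal_mul]

theorem lft_cj_eq_iff (p : ℕ) [Fact p.Prime] [CharP F p] (hn : 2 ≤ n) (g h : GL (Fin n) F) :
    (lft (cj g) : MulAut (Matrix.ProjectiveSpecialLinearGroup (Fin n) F)) = lft (cj h) ↔
      ∃ u : Fˣ, g = Matrix.GeneralLinearGroup.scalar (Fin n) u * h := by
  constructor
  · intro e
    have h1 : g * h⁻¹ ∈ Subgroup.center (GL (Fin n) F) := by
      rw [← cjP_ker p hn, MonoidHom.mem_ker, map_mul, map_inv, mul_inv_eq_one]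
      exact e
    rw [Matrix.GeneralLinearGroup.center_eq_range_scalar] at h1
    obtain ⟨u, hu⟩ := h1
    exact ⟨u, by rw [hu, inv_mul_cancel_right]⟩
  · rintro ⟨u, rfl⟩
    rw [map_mul, cj_center (scalar_mem_center u), one_mul]

theorem comm_field (p : ℕ) [Fact p.Prime] [CharP F p] (hn : 2 ≤ n) (σ : F ≃+* F) (c : GL (Fin n) F) :
    (lft (cj c) : MulAut (Matrix.ProjectiveSpecialLinearGroup (Fin n) F)) * lft (fl σ) = lft (fl σ) * lft (cj c) ↔
      ∃ (u : Fˣ) (g : GL (Fin n) F), gm σ g = g ∧ c = Matrix.GeneralLinearGroup.scalar (Fin n) u * g := by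
  have h0 : (lft (cj c) : MulAut (Matrix.ProjectiveSpecialLinearGroup (Fin n) F)) * lft (fl σ) = lft (fl σ) * lft (cj c) ↔
      (lft (cj (gm σ c)) : MulAut (Matrix.ProjectiveSpecialLinearGroup (Fin n) F)) = lft (cj c) := by
    rw [← map_mul lft (fl σ), fl_mul_cj, map_mul lft, mul_left_inj, eq_comm]
  rw [h0, lft_cj_eq_iff p hn]
  constructor
  · rintro ⟨u, hu⟩
    obtain ⟨i, j, hij⟩ := exists_entry_ne (by omega) c
    set a := (c : Matrix (Fin n) (Fin n) F) i j with ha
    have hent : ∀ k l, σ ((c : Matrix (Fin n) (Fin n) F) k l) = u * (c : Matrix (Fin n) (Fin n) F) k l := by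
      intro k l
      rw [← scalar_mul_apply, ← hu]; rfl
    have hσa : σ a = u * a := hent i j
    have hσa0 : σ a ≠ 0 := by
      intro h
      exact hij ((map_eq_zero_iff σ σ.injective).1 h)
    refine ⟨Units.mk0 a hij, Matrix.GeneralLinearGroup.scalar (Fin n) (Units.mk0 a hij)⁻¹ * c, ?_, ?_⟩
    · apply Units.ext
      ext k l
      show σ ((Matrix.GeneralLinearGroup.scalar (Fin n) (Units.mk0 a hij)⁻¹ * c : GL (Fin n) F) k l) = _
      rw [scalar_mul_apply, map_mul, hent, Units.val_inv_eq_inv_val, Units.val_mk0, map_inv₀, hσa]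
      have hu0 : (u : F) ≠ 0 := u.ne_zero
      field_simp
    · rw [← mul_assoc, ← map_mul, mul_inv_cancel, map_one, one_mul]
  · rintro ⟨u, g, hg, rfl⟩
    refine ⟨Units.map ((σ : F →+* F) : F →* F) u * u⁻¹, ?_⟩
    rw [map_mul, hg]
    apply Units.ext
    ext k l
    rw [scalar_mul_apply, scalar_mul_apply]
    have h1 : gm σ (Matrix.GeneralLinearGroup.scalar (Fin n) u) =
        Matrix.GeneralLinearGroup.scalar (Fin n) (Units.map ((σ : F →+* F) : F →* F) u) :=
      Matrix.GeneralLinearGroup.map_scalar _ _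
    rw [h1, scalar_mul_apply, Units.val_mul, Units.val_inv_eq_inv_val]
    have hu0 : (u : F) ≠ 0 := u.ne_zero
    field_simp

/-- fixed units -/
def fixU (σ : F ≃+* F) : Subgroup Fˣ where
  carrier := {u | σ (u : F) = u}
  mul_mem' {a b} ha hb := by
    show σ ((a * b : Fˣ) : F) = (a * b : Fˣ)
    rw [Units.val_mul, map_mul, show σ (a : F) = a from ha, show σ (b : F) = b from hb]
  one_mem' := map_one σ
  inv_mem' {a} ha := by
    show σ ((a⁻¹ : Fˣ) : F) = (a⁻¹ : Fˣ)
    rw [Units.val_inv_eq_inv_val, map_inv₀, show σ (a : F) = a from ha]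

theorem card_fixU [Finite F] (σ : F ≃+* F) : Nat.card (fixU σ) = Nat.card (fixF σ) - 1 := by
  classical
  letI := Fintype.ofFinite (fixF σ)
  have h1 : Nat.card (fixF σ)ˣ = Nat.card (fixF σ) - 1 := by
    rw [Nat.card_eq_fintype_card, Fintype.card_units, Nat.card_eq_fintype_card]
  rw [← h1]
  have hinj : Function.Injective (Units.map ((fixF σ).subtype : fixF σ →* F)) := by
    intro a b h
    apply Units.ext
    apply Subtype.ext
    exact congrArg Units.val h
  have h2 : fixU σ = (Units.map ((fixF σ).subtype : fixF σ →* F)).range := by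
    ext u
    constructor
    · intro hu
      have hu' : (u : F) ∈ fixF σ := hu
      refine ⟨Units.mk0 ⟨u, hu'⟩ ?_, ?_⟩
      · intro h
        exact u.ne_zero (congrArg Subtype.val h)
      · apply Units.ext
        rfl
    · rintro ⟨v, rfl⟩
      exact (v : fixF σ).2
  rw [h2]
  exact Nat.card_congr (Equiv.ofInjective _ hinj).symm

theorem exists_det_fixed (hn : 1 ≤ n) (u : Fˣ) : ∃ g : GL (Fin n) F, Matrix.GeneralLinearGroup.det g = u ∧
    ∀ σ : F ≃+* F, σ (u : F) = u → gm σ g = g := by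
  have key : (diagonal (fun i : Fin n => if i = ⟨0, hn⟩ then (u : F) else 1)).det = u := by
    rw [det_diagonal, Finset.prod_eq_single ⟨0, hn⟩]
    · rw [if_pos rfl]
    · intro b _ hb
      rw [if_neg hb]
    · intro h
      exact absurd (Finset.mem_univ _) h
  refine ⟨Matrix.GeneralLinearGroup.mkOfDetNeZero (diagonal (fun i : Fin n => if i = ⟨0, hn⟩ then (u : F) else 1)) ?_, ?_, ?_⟩
  · rw [key]
    exact u.ne_zero
  · apply Units.ext
    exact key
  · intro σ hσ
    apply Units.ext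
    show (diagonal (fun i : Fin n => if i = ⟨0, hn⟩ then (u : F) else 1)).map σ = diagonal (fun i : Fin n => if i = ⟨0, hn⟩ then (u : F) else 1)
    rw [diagonal_map (map_zero σ)]
    congr 1
    ext i
    by_cases hi : i = ⟨0, hn⟩
    · simp [hi, hσ]
    · simp [hi]

theorem mem_inn_iff (p : ℕ) [Fact p.Prime] [CharP F p] (hn : 2 ≤ n) (g : GL (Fin n) F) :
    ((lft (G := Matrix.SpecialLinearGroup (Fin n) F)).comp cj) g ∈ Cfsg.Inn (Matrix.ProjectiveSpecialLinearGroup (Fin n) F) ↔
      Matrix.GeneralLinearGroup.det g ∈ (powMonoidHom n : Fˣ →* Fˣ).range := by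
  rw [← om_ker p hn, MonoidHom.mem_ker]
  exact (QuotientGroup.eq_one_iff _).symm

theorem inn_le (n : ℕ) (F : Type*) [Field F] : Cfsg.Inn (Matrix.ProjectiveSpecialLinearGroup (Fin n) F) ≤
    ((lft (G := Matrix.SpecialLinearGroup (Fin n) F)).comp cj).range := by
  rintro _ ⟨x, rfl⟩
  induction x using QuotientGroup.induction_on with
  | H s => exact ⟨_, (conj_mk s).symm⟩

theorem split_field [Finite F] (p : ℕ) [Fact p.Prime] [CharP F p] (hn : 2 ≤ n) (σ : F ≃+* F) :
    Cfsg.splitClassCount (Cfsg.inndiagPSL n F) (Cfsg.Inn (Matrix.ProjectiveSpecialLinearGroup (Fin n) F)) (lft (fl σ)) =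
      Nat.gcd n ((Nat.card F - 1) / (Nat.card (fixF σ) - 1)) := by
  rw [inndiag_eq, CfsgLib.Split27.splitCount_eq ((lft (G := Matrix.SpecialLinearGroup (Fin n) F)).comp cj) _ _
    Matrix.GeneralLinearGroup.det (det_surj (by omega)) (powMonoidHom n : Fˣ →* Fˣ).range (mem_inn_iff p hn) (inn_le n F)
    (fixU σ ⊔ (powMonoidHom n : Fˣ →* Fˣ).range)]
  · haveI : IsCyclic Fˣ := inferInstance
    have hcF : Nat.card Fˣ = Nat.card F - 1 := by
      classical
      letI := Fintype.ofFinite F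
      rw [Nat.card_eq_fintype_card, Fintype.card_units, Nat.card_eq_fintype_card]
    rw [CfsgLib.Split27.index_sup, IsCyclic.index_powMonoidHom_range]
    have h1 : (fixU σ).index = (Nat.card F - 1) / (Nat.card (fixF σ) - 1) := by
      rw [← card_fixU, ← hcF, ← Subgroup.card_mul_index (fixU σ), Nat.mul_div_cancel_left _ Nat.card_pos]
    have h2 : (fixU σ).index ∣ Nat.card Fˣ := Subgroup.index_dvd_card _
    rw [← Nat.gcd_assoc, Nat.gcd_eq_left h2, Nat.gcd_comm, h1]
  · intro z
    rw [Subgroup.mem_sup]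
    constructor
    · rintro ⟨u, hu, t, ht, rfl⟩
      obtain ⟨g, hg, hgσ⟩ := exists_det_fixed (n := n) (by omega) u
      refine ⟨g, ?_, t, ht, by rw [hg]⟩
      exact (comm_field p hn σ g).2 ⟨1, g, hgσ σ hu, by rw [map_one, one_mul]⟩
    · rintro ⟨c, hc, t, ht, rfl⟩
      obtain ⟨u, g, hg, rfl⟩ := (comm_field p hn σ c).1 hc
      refine ⟨Matrix.GeneralLinearGroup.det g, ?_, u ^ n * t, Subgroup.mul_mem _ ⟨u, rfl⟩ ht, ?_⟩
      · show σ ((Matrix.GeneralLinearGroup.det g : Fˣ) : F) = _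
        have h1 : Matrix.GeneralLinearGroup.det (gm σ g) = Units.map ((σ : F →+* F) : F →* F) (Matrix.GeneralLinearGroup.det g) :=
          Matrix.GeneralLinearGroup.map_det _ _
        rw [hg] at h1
        exact (congrArg Units.val h1).symm
      · rw [map_mul, Matrix.GeneralLinearGroup.det_scalar, Fintype.card_fin, ← mul_assoc, mul_comm (u ^ n)]

/-- the centralizer of a field automorphism in `Inndiag` -/
theorem centr_field [Finite F] (p : ℕ) [Fact p.Prime] [CharP F p] (hn : 2 ≤ n) (σ : F ≃+* F) {F₀ : Type*} [Field F₀]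
    (e : F₀ ≃+* fixF σ) :
    Nonempty (↥(Cfsg.inndiagPSL n F ⊓ Subgroup.centralizer {(lft (fl σ) : MulAut (Matrix.ProjectiveSpecialLinearGroup (Fin n) F))}) ≃*
      Matrix.ProjGenLinGroup (Fin n) F₀) := by
  let j : F₀ →+* F := (fixF σ).subtype.comp (e : F₀ →+* fixF σ)
  have hj : Function.Injective j := j.injective
  have hjσ : ∀ a, σ (j a) = j a := fun a => (e a).2
  let J : GL (Fin n) F₀ →* GL (Fin n) F := Matrix.GeneralLinearGroup.map j
  have hJσ : ∀ g, gm σ (J g) = J g := by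
    intro g
    apply Units.ext
    ext a b
    exact hjσ _
  have hJr : ∀ g : GL (Fin n) F, gm σ g = g → ∃ g₀, J g₀ = g := by
    intro g hg
    have hent : ∀ a b, σ ((g : Matrix (Fin n) (Fin n) F) a b) = (g : Matrix (Fin n) (Fin n) F) a b := by
      intro a b
      exact congrArg (fun x : GL (Fin n) F => (x : Matrix (Fin n) (Fin n) F) a b) hg
    let M : Matrix (Fin n) (Fin n) F₀ := fun a b => e.symm ⟨(g : Matrix (Fin n) (Fin n) F) a b, hent a b⟩
    have hM : M.map j = (g : Matrix (Fin n) (Fin n) F) := by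
      ext a b
      show j (e.symm _) = _
      show ((e (e.symm ⟨(g : Matrix (Fin n) (Fin n) F) a b, hent a b⟩) : fixF σ) : F) = _
      rw [RingEquiv.apply_symm_apply]
    have hdet : M.det ≠ 0 := by
      intro h
      have h1 : ((g : Matrix (Fin n) (Fin n) F)).det = 0 := by
        rw [← hM]
        have := j.map_det M
        rw [h, map_zero] at this
        exact this.symm
      exact (Matrix.GeneralLinearGroup.det g).ne_zero h1
    refine ⟨Matrix.GeneralLinearGroup.mkOfDetNeZero M hdet, ?_⟩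
    apply Units.ext
    exact hM
  let ψ : GL (Fin n) F₀ →* MulAut (Matrix.ProjectiveSpecialLinearGroup (Fin n) F) :=
    ((lft (G := Matrix.SpecialLinearGroup (Fin n) F)).comp cj).comp J
  have hker : ψ.ker = Subgroup.center (GL (Fin n) F₀) := by
    ext g
    rw [MonoidHom.mem_ker]
    have h1 : ψ g = 1 ↔ J g ∈ Subgroup.center (GL (Fin n) F) := by
      rw [← cjP_ker p hn, MonoidHom.mem_ker]; rfl
    rw [h1]
    constructor
    · intro h
      rw [Subgroup.mem_center_iff] at h ⊢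
      intro k
      have h2 := h (J k)
      rw [← map_mul, ← map_mul] at h2
      apply Units.ext
      ext a b
      apply hj
      exact congrArg (fun x : GL (Fin n) F => (x : Matrix (Fin n) (Fin n) F) a b) h2
    · intro h
      rw [Matrix.GeneralLinearGroup.center_eq_range_scalar] at h ⊢
      obtain ⟨u, rfl⟩ := h
      exact ⟨Units.map (j : F₀ →* F) u, (Matrix.GeneralLinearGroup.map_scalar _ _).symm⟩
  have hrange : ψ.range = Cfsg.inndiagPSL n F ⊓ Subgroup.centralizer {(lft (fl σ) : MulAut (Matrix.ProjectiveSpecialLinearGroup (Fin n) F))} := by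
    rw [inndiag_eq]
    ext α
    constructor
    · rintro ⟨g, rfl⟩
      refine ⟨⟨J g, rfl⟩, Subgroup.mem_centralizer_singleton_iff.2 ?_⟩
      exact (comm_field p hn σ (J g)).2 ⟨1, J g, hJσ g, by rw [map_one, one_mul]⟩
    · rintro ⟨⟨c, rfl⟩, hc⟩
      have hc' := Subgroup.mem_centralizer_singleton_iff.1 hc
      obtain ⟨u, g, hg, rfl⟩ := (comm_field p hn σ c).1 hc'
      obtain ⟨g₀, rfl⟩ := hJr g hg
      refine ⟨g₀, ?_⟩
      show lft (cj (J g₀)) = lft (cj _)
      rw [map_mul cj, cj_center (scalar_mem_center u), one_mul]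
  have e1 : (GL (Fin n) F₀ ⧸ ψ.ker) ≃* ψ.range := QuotientGroup.quotientKerEquivRange ψ
  have e2 : Matrix.ProjGenLinGroup (Fin n) F₀ ≃* (GL (Fin n) F₀ ⧸ ψ.ker) :=
    (QuotientGroup.quotientMulEquivOfEq hker).symm
  exact ⟨((e2.trans e1).trans (MulEquiv.subgroupCongr hrange)).symm⟩

theorem field_arith [Finite F] {p f r : ℕ} [Fact p.Prime] (hF : Nat.card F = p ^ f) (hr : 0 < r) (σ : F ≃+* F)
    (ho : orderOf σ = r) : r ∣ f ∧ Nat.card (fixF σ) = p ^ (f / r) := by
  have h1 := card_fixF σ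
  rw [hF, ho] at h1
  have h2 : Nat.card (fixF σ) ∣ p ^ f := by
    rw [h1]
    exact dvd_pow_self _ hr.ne'
  obtain ⟨k, -, hk⟩ := (Nat.dvd_prime_pow (Fact.out : p.Prime)).1 h2
  rw [hk, ← pow_mul] at h1
  have h3 : f = k * r := Nat.pow_right_injective (Fact.out : p.Prime).two_le h1
  refine ⟨⟨k, by rw [h3, mul_comm]⟩, ?_⟩
  rw [hk, h3, Nat.mul_div_cancel _ hr]

theorem field_equiv {K L : Type*} [Field K] [Field L] [Finite K] [Finite L] (h : Nat.card K = Nat.card L) : Nonempty (K ≃+* L) := by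
  letI := Fintype.ofFinite K
  letI := Fintype.ofFinite L
  rw [Nat.card_eq_fintype_card, Nat.card_eq_fintype_card] at h
  exact ⟨FiniteField.ringEquivOfCardEq h⟩

end CfsgLib.AutPSL27
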