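import Cfsg.Agent.LibAutPSL27l

set_option autoImplicit false

/-! Involutory graph-field automorphisms of `PSL_n(F)`. -/

namespace CfsgLib.AutPSL27

open Matrix CfsgLib.H9027

section Gal

variable {F : Type*} [Field F] [Finite F]

theorem gal_cyclic (F : Type*) [Field F] [Finite F] : IsCyclic (F ≃+* F) := by
  letI := Fintype.ofFinite F
  obtain ⟨p, hp⟩ := CharP.exists F
  obtain ⟨n, hp', hn⟩ := FiniteField.card F p
  haveI : Fact p.Prime := ⟨hp'⟩
  exact (ringAut_cyclic (F := F) p n (by rw [Nat.card_eq_fintype_card, hn])).1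

theorem gal_comm (σ τ : F ≃+* F) : σ * τ = τ * σ := by
  haveI := gal_cyclic F
  obtain ⟨γ, hγ⟩ := IsCyclic.exists_generator (α := F ≃+* F)
  obtain ⟨a, rfl⟩ := hγ σ
  obtain ⟨b, rfl⟩ := hγ τ
  exact (Commute.refl γ).zpow_zpow a b

theorem gal_finite (F : Type*) [Field F] [Finite F] : Finite (F ≃+* F) :=
  Finite.of_injective (fun τ : F ≃+* F => (τ : F → F)) DFunLike.coe_injective

theorem gal_two_unique {σ τ : F ≃+* F} (hσ : σ ≠ 1) (hσ2 : σ ^ 2 = 1) (hτ : τ ≠ 1) (hτ2 : τ ^ 2 = 1) : σ = τ := by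
  classical
  haveI := gal_cyclic F
  haveI := gal_finite F
  letI := Fintype.ofFinite (F ≃+* F)
  by_contra hne
  have h1 := IsCyclic.card_pow_eq_one_le (α := F ≃+* F) (n := 2) (by norm_num)
  have h2 : ({1, σ, τ} : Finset (F ≃+* F)) ⊆ Finset.univ.filter (fun a : F ≃+* F => a ^ 2 = 1) := by
    intro a ha
    simp only [Finset.mem_insert, Finset.mem_singleton] at ha
    simp only [Finset.mem_filter, Finset.mem_univ, true_and]
    rcases ha with rfl | rfl | rfl
    · exact one_pow 2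
    · exact hσ2
    · exact hτ2
  have h3 : ({1, σ, τ} : Finset (F ≃+* F)).card = 3 := by
    rw [Finset.card_insert_of_notMem, Finset.card_insert_of_notMem, Finset.card_singleton]
    · simpa using hne
    · simp only [Finset.mem_insert, Finset.mem_singleton, not_or]
      exact ⟨Ne.symm hσ, Ne.symm hτ⟩
  have := Finset.card_le_card h2
  omega

/-- the involution of the field with `q²` elements is `a ↦ a^q` -/
theorem invol_eq_pow {p k : ℕ} [Fact p.Prime] (hF : Nat.card F = (p ^ k) ^ 2) (hk : 0 < k) {σ : F ≃+* F} (hσ : σ ≠ 1) (hσ2 : σ ^ 2 = 1)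
    (a : F) : σ a = a ^ (p ^ k) := by
  letI := Fintype.ofFinite F
  haveI : CharP F p := charP_of_card_eq_prime_pow (R := F) (p := p) (f := k * 2) (by
    rw [← Nat.card_eq_fintype_card, hF, ← pow_mul])
  haveI : ExpChar F p := ExpChar.prime Fact.out
  set τ : F ≃+* F := iterateFrobeniusEquiv F p k with hτ
  have hτa : ∀ a, τ a = a ^ (p ^ k) := fun a => iterateFrobeniusEquiv_def F p k a
  have hτ2 : τ ^ 2 = 1 := by
    ext a
    rw [sq]
    show τ (τ a) = a
    rw [hτa, hτa, ← pow_mul, ← sq, ← hF, Nat.card_eq_fintype_card, FiniteField.pow_card]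
  have hτ1 : τ ≠ 1 := by
    intro h
    have hroots : ∀ a : F, a ^ (p ^ k) = a := by
      intro a
      rw [← hτa, h]; rfl
    have hlt : 1 < p ^ k := Nat.one_lt_pow hk.ne' (Fact.out : p.Prime).one_lt
    have hcard := Polynomial.card_roots' (Polynomial.X ^ (p ^ k) - Polynomial.X : Polynomial F)
    rw [FiniteField.X_pow_card_sub_X_natDegree_eq F hlt] at hcard
    have hne := FiniteField.X_pow_card_sub_X_ne_zero F hlt
    have hsub : (Finset.univ : Finset F).val ≤ (Polynomial.X ^ (p ^ k) - Polynomial.X : Polynomial F).roots := by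
      rw [Multiset.le_iff_subset Finset.univ.nodup]
      intro a _
      rw [Polynomial.mem_roots hne, Polynomial.IsRoot, Polynomial.eval_sub, Polynomial.eval_pow, Polynomial.eval_X, hroots, sub_self]
    have h4 := (Multiset.card_le_card hsub).trans hcard
    rw [Finset.card_val, Finset.card_univ, ← Nat.card_eq_fintype_card, hF] at h4
    nlinarith
  rw [← hτa, gal_two_unique hσ hσ2 hτ1 hτ2]

end Gal

variable {F : Type*} [Field F] {n : ℕ}

/-- unitary matrices -/
def uni (σ : F ≃+* F) (n : ℕ) : Subgroup (GL (Fin n) F) where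
  carrier := {g | gm σ (itGL g) = g}
  mul_mem' {a b} ha hb := by
    have h1 : itGL (a * b) = itGL a * itGL b := by
      apply Units.ext
      show (((a * b)⁻¹ : GL (Fin n) F) : Matrix (Fin n) (Fin n) F)ᵀ = ((a⁻¹ : GL (Fin n) F) : Matrix (Fin n) (Fin n) F)ᵀ * ((b⁻¹ : GL (Fin n) F) : Matrix (Fin n) (Fin n) F)ᵀ
      rw [_root_.mul_inv_rev, Units.val_mul, transpose_mul]
    show gm σ (itGL (a * b)) = a * b
    rw [h1, map_mul, show gm σ (itGL a) = a from ha, show gm σ (itGL b) = b from hb]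
  one_mem' := by
    show gm σ (itGL 1) = 1
    have : itGL (1 : GL (Fin n) F) = 1 := by
      apply Units.ext
      show ((1⁻¹ : GL (Fin n) F) : Matrix (Fin n) (Fin n) F)ᵀ = 1
      rw [inv_one, Units.val_one, transpose_one]
    rw [this, map_one]
  inv_mem' {a} ha := by
    show gm σ (itGL a⁻¹) = a⁻¹
    have : itGL a⁻¹ = (itGL a)⁻¹ := by
      rw [eq_inv_iff_mul_eq_one]
      apply Units.ext
      show (((a⁻¹)⁻¹ : GL (Fin n) F) : Matrix (Fin n) (Fin n) F)ᵀ * ((a⁻¹ : GL (Fin n) F) : Matrix (Fin n) (Fin n) F)ᵀ = 1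
      rw [← transpose_mul, inv_inv, Units.inv_mul, transpose_one]
    rw [this, map_inv, show gm σ (itGL a) = a from ha]

theorem mem_uni {σ : F ≃+* F} {g : GL (Fin n) F} : g ∈ uni σ n ↔ gm σ (itGL g) = g := Iff.rfl

theorem mem_uni_iff {σ : F ≃+* F} {g : GL (Fin n) F} :
    g ∈ uni σ n ↔ (g : Matrix (Fin n) (Fin n) F)ᵀ * (g : Matrix (Fin n) (Fin n) F).map σ = 1 := by
  rw [mem_uni]
  have h1 : gm σ (itGL g) = itGL (gm σ g) := by
    apply Units.ext
    show (((g⁻¹ : GL (Fin n) F) : Matrix (Fin n) (Fin n) F)ᵀ).map σ = (((gm σ g)⁻¹ : GL (Fin n) F) : Matrix (Fin n) (Fin n) F)ᵀ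
    rw [← map_inv]; rfl
  rw [h1]
  constructor
  · intro h
    have h2 : (((gm σ g)⁻¹ : GL (Fin n) F) : Matrix (Fin n) (Fin n) F)ᵀ = (g : Matrix (Fin n) (Fin n) F) := congrArg Units.val h
    rw [← h2, transpose_transpose]
    have h3 : (((((gm σ g)⁻¹ : GL (Fin n) F) : Matrix (Fin n) (Fin n) F)ᵀ)).map σ = ((gm σ g : GL (Fin n) F) : Matrix (Fin n) (Fin n) F) := by
      rw [h2]; rfl
    rw [h3, Units.inv_mul]
  · intro h
    apply Units.ext
    show (((gm σ g)⁻¹ : GL (Fin n) F) : Matrix (Fin n) (Fin n) F)ᵀ = (g : Matrix (Fin n) (Fin n) F)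
    have h3 : (((gm σ g)⁻¹ : GL (Fin n) F) : Matrix (Fin n) (Fin n) F) = (g : Matrix (Fin n) (Fin n) F)ᵀ := by
      have h4 : (g : Matrix (Fin n) (Fin n) F)ᵀ * ((gm σ g : GL (Fin n) F) : Matrix (Fin n) (Fin n) F) = 1 := h
      calc (((gm σ g)⁻¹ : GL (Fin n) F) : Matrix (Fin n) (Fin n) F) = ((g : Matrix (Fin n) (Fin n) F)ᵀ * ((gm σ g : GL (Fin n) F) : Matrix (Fin n) (Fin n) F)) * (((gm σ g)⁻¹ : GL (Fin n) F) : Matrix (Fin n) (Fin n) F) := by
            rw [h4, one_mul]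
        _ = _ := by rw [mul_assoc, Units.mul_inv, mul_one]
    rw [h3, transpose_transpose]

theorem itGL_scalar_mul (u : Fˣ) (g : GL (Fin n) F) :
    itGL (Matrix.GeneralLinearGroup.scalar (Fin n) u * g) = Matrix.GeneralLinearGroup.scalar (Fin n) u⁻¹ * itGL g := by
  apply Units.ext
  ext i j
  rw [scalar_mul_apply]
  show (((Matrix.GeneralLinearGroup.scalar (Fin n) u * g)⁻¹ : GL (Fin n) F) : Matrix (Fin n) (Fin n) F) j i = (u⁻¹ : Fˣ) * ((g⁻¹ : GL (Fin n) F) : Matrix (Fin n) (Fin n) F) j i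
  rw [_root_.mul_inv_rev, ← map_inv, ← Matrix.GeneralLinearGroup.scalar_commute, scalar_mul_apply]

theorem gm_scalar_mul (σ : F ≃+* F) (u : Fˣ) (g : GL (Fin n) F) :
    gm σ (Matrix.GeneralLinearGroup.scalar (Fin n) u * g) =
      Matrix.GeneralLinearGroup.scalar (Fin n) (Units.map ((σ : F →+* F) : F →* F) u) * gm σ g := by
  rw [map_mul]
  congr 1
  exact Matrix.GeneralLinearGroup.map_scalar _ _

theorem scalar_inj (hn : 0 < n) {u v : Fˣ} (g : GL (Fin n) F)
    (h : Matrix.GeneralLinearGroup.scalar (Fin n) u * g = Matrix.GeneralLinearGroup.scalar (Fin n) v * g) : u = v := by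
  obtain ⟨i, j, hij⟩ := exists_entry_ne hn g
  apply Units.ext
  have := congrArg (fun x : GL (Fin n) F => (x : Matrix (Fin n) (Fin n) F) i j) h
  simp only [scalar_mul_apply] at this
  exact mul_right_cancel₀ hij this

theorem comm_gf [Finite F] (p : ℕ) [Fact p.Prime] [CharP F p] (hn : 2 ≤ n) {σ : F ≃+* F} (hσ : σ ≠ 1) (hσ2 : σ ^ 2 = 1) (c : GL (Fin n) F) :
    (lft (cj c) : MulAut (Matrix.ProjectiveSpecialLinearGroup (Fin n) F)) * lft (fl σ * it) = lft (fl σ * it) * lft (cj c) ↔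
      ∃ (u : Fˣ) (g : GL (Fin n) F), g ∈ uni σ n ∧ c = Matrix.GeneralLinearGroup.scalar (Fin n) u * g := by
  have hσσ : ∀ a, σ (σ a) = a := by
    intro a
    have := congrArg (fun τ : F ≃+* F => τ a) hσ2
    rw [sq] at this
    exact this
  have hmm : ∀ g : GL (Fin n) F, gm σ (gm σ g) = g := by
    intro g
    apply Units.ext
    ext i j
    exact hσσ _
  have hii : ∀ g : GL (Fin n) F, itGL (itGL g) = g := by
    intro g
    apply Units.ext
    show (((itGL g)⁻¹ : GL (Fin n) F) : Matrix (Fin n) (Fin n) F)ᵀ = (g : Matrix (Fin n) (Fin n) F)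
    show ((g : Matrix (Fin n) (Fin n) F)ᵀ)ᵀ = _
    rw [transpose_transpose]
  have hmi : ∀ g : GL (Fin n) F, gm σ (itGL g) = itGL (gm σ g) := by
    intro g
    apply Units.ext
    show (((g⁻¹ : GL (Fin n) F) : Matrix (Fin n) (Fin n) F)ᵀ).map σ = (((gm σ g)⁻¹ : GL (Fin n) F) : Matrix (Fin n) (Fin n) F)ᵀ
    rw [← map_inv]; rfl
  have h0 : (lft (cj c) : MulAut (Matrix.ProjectiveSpecialLinearGroup (Fin n) F)) * lft (fl σ * it) = lft (fl σ * it) * lft (cj c) ↔
      (lft (cj (gm σ (itGL c))) : MulAut (Matrix.ProjectiveSpecialLinearGroup (Fin n) F)) = lft (cj c) := by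
    rw [← map_mul lft (fl σ * it), mul_assoc (fl σ), it_mul_cj, ← mul_assoc, fl_mul_cj, mul_assoc (cj _), map_mul lft (cj _), mul_left_inj, eq_comm]
  have hord : orderOf σ = 2 := orderOf_eq_prime hσ2 hσ
  rw [h0, lft_cj_eq_iff p hn]
  constructor
  · rintro ⟨u, hu⟩
    -- `σ u = u`
    have h1 : gm σ (itGL (gm σ (itGL c))) = c := by rw [hmi, hmm, hii]
    rw [hu, itGL_scalar_mul, gm_scalar_mul, hu, ← mul_assoc, ← map_mul] at h1
    have h2 : Units.map ((σ : F →+* F) : F →* F) u⁻¹ * u = 1 := by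
      apply scalar_inj (n := n) (by omega) c
      rw [h1, map_one, one_mul]
    have hσu : σ (u : F) = u := by
      have h3 := congrArg Units.val h2
      have h4 : σ ((u⁻¹ : Fˣ) : F) * (u : F) = 1 := h3
      rw [Units.val_inv_eq_inv_val, map_inv₀] at h4
      have h5 : σ (u : F) ≠ 0 := by
        intro h
        exact u.ne_zero ((map_eq_zero_iff σ σ.injective).1 h)
      rw [inv_mul_eq_one₀ h5] at h4
      exact h4
    obtain ⟨y, hy, hyN⟩ := exists_norm σ 2 (by norm_num) hord (((u : Fˣ) : F)⁻¹) (inv_ne_zero u.ne_zero) (by rw [map_inv₀, hσu])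
    rw [Finset.prod_range_succ, Finset.prod_range_one, pow_zero, pow_one] at hyN
    have hyN' : y * σ y = (u : F)⁻¹ := hyN
    refine ⟨Units.mk0 y hy, Matrix.GeneralLinearGroup.scalar (Fin n) (Units.mk0 y hy)⁻¹ * c, ?_, ?_⟩
    · rw [mem_uni, itGL_scalar_mul, gm_scalar_mul, hu, ← mul_assoc, ← map_mul]
      congr 2
      apply Units.ext
      rw [inv_inv, Units.val_inv_eq_inv_val, Units.val_mul]
      show σ y * u = y⁻¹
      have hu0 : (u : F) ≠ 0 := u.ne_zero
      apply eq_inv_of_mul_eq_one_left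
      rw [mul_right_comm, mul_comm (σ y), hyN', inv_mul_cancel₀ hu0]
    · rw [← mul_assoc, ← map_mul, mul_inv_cancel, map_one, one_mul]
  · rintro ⟨u, g, hg, rfl⟩
    rw [mem_uni] at hg
    refine ⟨Units.map ((σ : F →+* F) : F →* F) u⁻¹ * u⁻¹, ?_⟩
    rw [itGL_scalar_mul, gm_scalar_mul, hg, ← mul_assoc, ← map_mul, inv_mul_cancel_right]

end CfsgLib.AutPSL27
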