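import Cfsg.Agent.LibSylCen27
import Cfsg.Agent.LibH22Sp5
import Cfsg.Prelude.Def_LieTypeDatum

set_option autoImplicit false

/-! Root groups of `Sp_{2m}(F)` and the centres of the Sylow `p`-subgroups. -/

namespace CfsgLib.AutPSp27

open Matrix Cfsg.Agent.H22 CfsgLib.SylCen27

variable {m : ℕ} {F : Type*} [Field F]

local notation "V" => (Fin m ⊕ Fin m → F)
local notation "Sp" => (Matrix.symplecticGroup (Fin m) F)
local notation "B" => (spB m F)

theorem B_symm_zero {v w : V} (h : B v w = 0) : B w v = 0 := by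
  rw [← spB_isAlt.neg_eq v w, h, neg_zero]

theorem B_neg (v w : V) : B v w = - B w v := by rw [spB_isAlt.neg_eq w v]

theorem B_self (v : V) : B v v = 0 := spB_isAlt v

theorem tr_apply (v : V) (c : F) (x : V) : spToLin (spT v c) x = x + (c * B x v) • v := sympTransvection_mulVec v c x

/-- long/short root type element `x ↦ x + B(x,v) w + B(x,w) v` for `v ⊥ w` -/
def spE (v w : V) : Sp := spT (v + w) 1 * spT v (-1) * spT w (-1)

theorem spE_apply {v w : V} (h : B v w = 0) (x : V) : spToLin (spE v w) x = x + B x v • w + B x w • v := by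
  have h' := B_symm_zero h
  unfold spE
  rw [map_mul, map_mul, LinearEquiv.mul_apply, LinearEquiv.mul_apply, tr_apply, tr_apply, tr_apply]
  simp only [map_add, map_smul, LinearMap.add_apply, LinearMap.smul_apply, smul_eq_mul, h, h', B_self]
  module

theorem spE_conj (A : Sp) (v w : V) : A * spE v w * A⁻¹ = spE (spToLin A v) (spToLin A w) := by
  unfold spE
  have h : ∀ a b c : Sp, A * (a * b * c) * A⁻¹ = (A * a * A⁻¹) * (A * b * A⁻¹) * (A * c * A⁻¹) := by
    intro a b c; group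
  rw [h, spT_conj, spT_conj, spT_conj, ← spToLin_apply, ← spToLin_apply, ← spToLin_apply, map_add]

theorem lin_ext {A A' : Sp} (h : ∀ x, spToLin A x = spToLin A' x) : A = A' :=
  spToLin_injective (LinearEquiv.ext h)

theorem exists_dual {v : V} (hv : v ≠ 0) : ∃ x : V, B x v = 1 := by
  obtain ⟨w, hw⟩ := exists_not_ortho v hv
  have hw' : B w v ≠ 0 := by rw [B_neg]; exact neg_ne_zero.mpr hw
  exact ⟨(B w v)⁻¹ • w, by rw [map_smul, LinearMap.smul_apply, smul_eq_mul, inv_mul_cancel₀ hw']⟩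

theorem nondeg {y : V} (h : ∀ x, B y x = 0) : y = 0 := spB_nondeg.1 y h

theorem mem_of_perp_perp {v y : V} (hv : v ≠ 0) (h : ∀ w, B w v = 0 → B y w = 0) : ∃ c : F, y = c • v := by
  obtain ⟨x0, hx0⟩ := exists_dual hv
  refine ⟨-(B y x0), ?_⟩
  rw [neg_smul, eq_neg_iff_add_eq_zero]
  apply nondeg
  intro x
  have h1 := h (x - B x v • x0) (by
    rw [map_sub, map_smul, LinearMap.sub_apply, LinearMap.smul_apply, hx0, smul_eq_mul, mul_one, sub_self])
  rw [map_sub, map_smul, smul_eq_mul] at h1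
  rw [map_add, map_smul, LinearMap.add_apply, LinearMap.smul_apply, smul_eq_mul, B_neg v x]
  linear_combination h1

/-- an isometry fixing `v^⊥` pointwise is a transvection -/
theorem eq_tr_of_fix {v : V} (hv : v ≠ 0) {z : Sp} (hz : ∀ w, B w v = 0 → spToLin z w = w) : ∃ c : F, z = spT v c := by
  obtain ⟨x0, hx0⟩ := exists_dual hv
  obtain ⟨c, hc⟩ := mem_of_perp_perp (y := spToLin z x0 - x0) hv (by
    intro w hw
    rw [map_sub, LinearMap.sub_apply, sub_eq_zero]
    conv_lhs => rw [← hz w hw]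
    exact spToLin_isometry z x0 w)
  refine ⟨c, lin_ext fun x => ?_⟩
  rw [tr_apply]
  have h1 : B (x - B x v • x0) v = 0 := by
    rw [map_sub, map_smul, LinearMap.sub_apply, LinearMap.smul_apply, hx0, smul_eq_mul, mul_one, sub_self]
  have h2 := hz _ h1
  rw [map_sub, map_smul] at h2
  have h3 : spToLin z x = B x v • spToLin z x0 + (x - B x v • x0) := by rw [← h2]; abel
  rw [h3, sub_eq_iff_eq_add.mp hc]
  module

/-- the unipotent radical of the stabilizer of a vector -/
def QS (v : V) : Subgroup Sp where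
  carrier := {g | spToLin g v = v ∧ ∀ x, B x v = 0 → ∃ c : F, spToLin g x = x + c • v}
  mul_mem' := by
    rintro g h ⟨hg, hg'⟩ ⟨hh, hh'⟩
    refine ⟨by rw [map_mul, LinearEquiv.mul_apply, hh, hg], fun x hx => ?_⟩
    obtain ⟨c, hc⟩ := hh' x hx
    obtain ⟨d, hd⟩ := hg' x hx
    exact ⟨d + c, by rw [map_mul, LinearEquiv.mul_apply, hc, map_add, map_smul, hg, hd, add_smul, add_assoc]⟩
  one_mem' := ⟨by rw [map_one]; rfl, fun x _ => ⟨0, by rw [map_one, zero_smul, add_zero]; rfl⟩⟩
  inv_mem' := by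
    rintro g ⟨hg, hg'⟩
    have hi : ∀ x, spToLin g⁻¹ (spToLin g x) = x := by
      intro x
      rw [← LinearEquiv.mul_apply, ← map_mul, inv_mul_cancel, map_one]; rfl
    have hv : spToLin g⁻¹ v = v := by
      conv_lhs => rw [← hg]
      exact hi v
    refine ⟨hv, fun x hx => ?_⟩
    obtain ⟨c, hc⟩ := hg' x hx
    refine ⟨-c, ?_⟩
    have := hi x
    rw [hc, map_add, map_smul, hv] at this
    rw [← this, neg_smul, add_neg_cancel_right, this]

theorem spT_mem_QS (v : V) (c : F) : spT v c ∈ QS v := by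
  refine ⟨?_, fun x hx => ⟨0, ?_⟩⟩
  · rw [tr_apply, B_self, mul_zero, zero_smul, add_zero]
  · rw [tr_apply, hx, mul_zero]

theorem spE_mem_QS {v w : V} (h : B v w = 0) : spE v w ∈ QS v := by
  refine ⟨?_, fun x hx => ⟨B x w, ?_⟩⟩
  · rw [spE_apply h, B_self, h, zero_smul, zero_smul, add_zero, add_zero]
  · rw [spE_apply h, hx, zero_smul, add_zero]

theorem QS_pgroup {p : ℕ} [Fact p.Prime] [CharP F p] (v : V) : IsPGroup p (QS v) := by
  rintro ⟨g, hg, hg'⟩
  refine ⟨2, Subtype.ext ?_⟩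
  show g ^ (p ^ 2) = 1
  apply spToLin_injective
  rw [map_pow, map_one]
  have h3 : ∀ x : V, B (spToLin g x - x) v = 0 := by
    intro x
    rw [map_sub, LinearMap.sub_apply, sub_eq_zero]
    conv_lhs => rw [← hg]
    exact spToLin_isometry g x v
  refine equiv_pow_of_unip (p := p) _ 3 2 ?_ (fun x => spToLin g x - x) (fun _ => rfl) (fun x => ?_)
  · have := (Fact.out : p.Prime).two_le
    nlinarith
  · show spToLin g (spToLin g (spToLin g x - x) - (spToLin g x - x)) - (spToLin g (spToLin g x - x) - (spToLin g x - x)) = 0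
    obtain ⟨c, hc⟩ := hg' _ (h3 x)
    rw [hc, add_sub_cancel_left, map_smul, hg, sub_self]

theorem inv_fix {A : Sp} {x : V} (h : spToLin A x = x) : spToLin A⁻¹ x = x := by
  conv_lhs => rw [← h]
  rw [← LinearEquiv.mul_apply, ← map_mul, inv_mul_cancel, map_one]; rfl

theorem inv_mul_app (A : Sp) (x : V) : spToLin A⁻¹ (spToLin A x) = x := by
  rw [← LinearEquiv.mul_apply, ← map_mul, inv_mul_cancel, map_one]; rfl

theorem mul_inv_app (A : Sp) (x : V) : spToLin A (spToLin A⁻¹ x) = x := by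
  rw [← LinearEquiv.mul_apply, ← map_mul, mul_inv_cancel, map_one]; rfl

/-- the radical is in every Sylow subgroup fixing the vector -/
theorem QS_le {p : ℕ} [Fact p.Prime] [CharP F p] (Q : Sylow p Sp) {v : V} (hQ : ∀ g ∈ Q, spToLin g v = v) : QS v ≤ Q := by
  refine le_sylow Q _ (QS_pgroup v) ?_
  rintro s hs g ⟨hg, hg'⟩
  have hs' := hQ s hs
  have hsi := inv_fix hs'
  refine ⟨?_, fun x hx => ?_⟩
  · rw [map_mul, map_mul, LinearEquiv.mul_apply, LinearEquiv.mul_apply, hsi, hg, hs']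
  · have h1 : B (spToLin s⁻¹ x) v = 0 := by
      conv_lhs => rw [← hsi]
      rw [spToLin_isometry, hx]
    obtain ⟨c, hc⟩ := hg' _ h1
    refine ⟨c, ?_⟩
    rw [map_mul, map_mul, LinearEquiv.mul_apply, LinearEquiv.mul_apply, hc, map_add, map_smul, hs', mul_inv_app]

theorem exists_fixed_vec [Finite F] {p : ℕ} [Fact p.Prime] [CharP F p] (hm : 1 ≤ m) (Q : Subgroup Sp) (hQ : IsPGroup p Q) :
    ∃ v : V, v ≠ 0 ∧ ∀ g ∈ Q, spToLin g v = v := by
  obtain ⟨u, -, hu, h⟩ := exists_fixed_mod Q hQ spToLin (⊥ : Submodule F V) ⊤ (by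
    intro h
    have h1 : (Pi.single (Sum.inl ⟨0, hm⟩) 1 : V) ∈ (⊥ : Submodule F V) := h trivial
    rw [Submodule.mem_bot] at h1
    have h2 := congrFun h1 (Sum.inl ⟨0, hm⟩)
    simp at h2) (fun _ _ _ _ => trivial) (fun g _ x hx => by
      rw [Submodule.mem_bot] at hx ⊢
      rw [hx, map_zero])
  refine ⟨u, fun h0 => hu (by rw [h0]; exact Submodule.zero_mem _), fun g hg => ?_⟩
  have := h g hg
  rwa [Submodule.mem_bot, sub_eq_zero] at this

/-- what centralizing the radical means -/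
theorem comm_spE {v : V} (hv : v ≠ 0) {z : Sp} (hzv : spToLin z v = v) {w : V} (hw : B v w = 0)
    (h : z * spE v w = spE v w * z) : ∃ c : F, spToLin z w = w + c • v ∧ 2 * c = 0 := by
  have h1 : spE v (spToLin z w) = spE v w := by
    have h2 := spE_conj z v w
    rw [hzv, h, mul_inv_cancel_right] at h2
    exact h2.symm
  have hzw : B v (spToLin z w) = 0 := by
    conv_lhs => rw [← hzv]
    rw [spToLin_isometry, hw]
  obtain ⟨x0, hx0⟩ := exists_dual hv
  have h3 := congrArg (fun g => spToLin g x0) h1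
  simp only [spE_apply hzw, spE_apply hw, hx0, one_smul] at h3
  have h4 : spToLin z w = w + (B x0 w - B x0 (spToLin z w)) • v := by
    calc spToLin z w = (x0 + spToLin z w + B x0 (spToLin z w) • v) - x0 - B x0 (spToLin z w) • v := by abel
      _ = (x0 + w + B x0 w • v) - x0 - B x0 (spToLin z w) • v := by rw [h3]
      _ = _ := by module
  refine ⟨_, h4, ?_⟩
  rw [h4] at h3
  simp only [map_add, map_smul, smul_eq_mul, hx0, mul_one] at h3
  have h5 : (2 * (B x0 w - B x0 (spToLin z w))) • v = 0 := by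
    have h6 : x0 + (w + (B x0 w - B x0 (spToLin z w)) • v) + (B x0 w + (B x0 w - B x0 (spToLin z w))) • v
      - (x0 + w + B x0 w • v) = 0 := by rw [h3, sub_self]
    rw [← h6]
    module
  exact (smul_eq_zero.mp h5).resolve_right hv

/-- **Sylow centres in odd characteristic** -/
theorem cen_sylow_odd [Finite F] {p : ℕ} [Fact p.Prime] [CharP F p] (hp : p ≠ 2) (hm : 1 ≤ m) (Q : Sylow p Sp) :
    ∃ v : V, v ≠ 0 ∧ cen (Q : Subgroup Sp) = (spRoot v : Set Sp) := by
  obtain ⟨v, hv, hQ⟩ := exists_fixed_vec hm (Q : Subgroup Sp) Q.2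
  have hle := QS_le Q hQ
  have h2 : (2 : F) ≠ 0 := by
    intro h
    have h1 : ((2 : ℕ) : F) = 0 := by exact_mod_cast h
    rw [CharP.cast_eq_zero_iff F p] at h1
    exact hp ((Nat.prime_dvd_prime_iff_eq Fact.out Nat.prime_two).1 h1)
  refine ⟨v, hv, ?_⟩
  ext z
  constructor
  · rintro ⟨hz, hc⟩
    apply eq_tr_of_fix hv
    intro w hw
    obtain ⟨c, hc1, hc2⟩ := comm_spE hv (hQ z hz) (B_symm_zero hw) (hc _ (hle (spE_mem_QS (B_symm_zero hw)))).symm
    rw [hc1, (mul_eq_zero.mp hc2).resolve_left h2, zero_smul, add_zero]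
  · rintro ⟨c, rfl⟩
    refine ⟨hle (spT_mem_QS v c), fun y hy => ?_⟩
    have h1 := spT_conj y v c
    rw [← spToLin_apply, hQ y hy] at h1
    exact mul_inv_eq_iff_eq_mul.mp h1

end CfsgLib.AutPSp27
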