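import Cfsg.Agent.LibAutPSp27a

set_option autoImplicit false

/-! Centres of the Sylow `2`-subgroups of `Sp_{2m}(F)` in characteristic two. -/

namespace CfsgLib.AutPSp27

open Matrix Cfsg.Agent.H22 CfsgLib.SylCen27

variable {m : ℕ} {F : Type*} [Field F]

local notation "V" => (Fin m ⊕ Fin m → F)
local notation "Sp" => (Matrix.symplecticGroup (Fin m) F)
local notation "B" => (spB m F)

theorem nondeg' {y : V} (h : ∀ x, B x y = 0) : y = 0 := nondeg fun x => B_symm_zero (h x)

theorem perp2 {u v y : V} (h : ∀ w, B w u = 0 → B w v = 0 → B w y = 0) : ∃ a b : F, y = a • u + b • v := by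
  have h1 := mem_span_of_iInf_ker_le_ker (L := ![(B).flip u, (B).flip v]) (K := (B).flip y) (by
    intro w hw
    rw [Submodule.mem_iInf] at hw
    exact h w (hw 0) (hw 1))
  rw [Matrix.range_cons, Matrix.range_cons, Matrix.range_empty, Set.union_empty, Set.singleton_union,
    Submodule.mem_span_pair] at h1
  obtain ⟨a, b, hab⟩ := h1
  refine ⟨a, b, ?_⟩
  rw [← sub_eq_zero]
  apply nondeg'
  intro x
  have h2 : a * B x u + b * B x v = B x y := LinearMap.congr_fun hab x
  rw [map_sub, map_add, map_smul, map_smul, smul_eq_mul, smul_eq_mul, h2, sub_self]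

/-- the perp of two vectors is not in their span when `m ≥ 3` -/
theorem exists_perp_not_span (hm : 3 ≤ m) (u v : V) : ∃ w : V, B w u = 0 ∧ B w v = 0 ∧ ¬ ∃ a b : F, w = a • u + b • v := by
  by_contra hcon
  push Not at hcon
  let φ : V →ₗ[F] (F × F) := ((B).flip u).prod ((B).flip v)
  have h1 : LinearMap.ker φ ≤ Submodule.span F {u, v} := by
    intro w hw
    have hw' : (B w u, B w v) = (0, 0) := hw
    rw [Prod.mk.injEq] at hw'
    obtain ⟨a, b, h⟩ := hcon w hw'.1 hw'.2
    rw [Submodule.mem_span_pair]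
    exact ⟨a, b, h.symm⟩
  have h2 : Module.finrank F (Submodule.span F ({u, v} : Set V)) ≤ 2 := by
    classical
    have h := finrank_span_finset_le_card (R := F) ({u, v} : Finset V)
    rw [Finset.coe_insert, Finset.coe_singleton] at h
    exact h.trans Finset.card_le_two
  have h3 := LinearMap.finrank_range_add_finrank_ker φ
  have h4 : Module.finrank F (LinearMap.range φ) ≤ 2 := by
    refine (Submodule.finrank_le _).trans ?_
    rw [Module.finrank_prod, Module.finrank_self]
  have h5 := Submodule.finrank_mono h1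
  rw [Module.finrank_fintype_fun_eq_card, Fintype.card_sum, Fintype.card_fin] at h3
  omega

/-- the unipotent radical of the stabilizer of a flag (point, isotropic line) -/
def QS2 (v u : V) : Subgroup Sp where
  carrier := {g | spToLin g v = v ∧ (∃ c : F, spToLin g u = u + c • v) ∧
    ∀ x, B x v = 0 → B x u = 0 → ∃ a b : F, spToLin g x = x + a • v + b • u}
  mul_mem' := by
    rintro g h ⟨hg, ⟨c, hc⟩, hg'⟩ ⟨hh, ⟨d, hd⟩, hh'⟩
    refine ⟨by rw [map_mul, LinearEquiv.mul_apply, hh, hg], ⟨c + d, ?_⟩, fun x hx hx' => ?_⟩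
    · rw [map_mul, LinearEquiv.mul_apply, hd, map_add, map_smul, hg, hc]
      module
    · obtain ⟨a, b, hab⟩ := hh' x hx hx'
      obtain ⟨a', b', hab'⟩ := hg' x hx hx'
      refine ⟨a' + a + b * c, b' + b, ?_⟩
      rw [map_mul, LinearEquiv.mul_apply, hab, map_add, map_add, map_smul, map_smul, hg, hc, hab']
      module
  one_mem' := ⟨by rw [map_one]; rfl, ⟨0, by rw [map_one, zero_smul, add_zero]; rfl⟩,
    fun x _ _ => ⟨0, 0, by rw [map_one, zero_smul, zero_smul, add_zero, add_zero]; rfl⟩⟩
  inv_mem' := by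
    rintro g ⟨hg, ⟨c, hc⟩, hg'⟩
    have hv : spToLin g⁻¹ v = v := inv_fix hg
    have hu : spToLin g⁻¹ u = u + (-c) • v := by
      have := inv_mul_app g u
      rw [hc, map_add, map_smul, hv] at this
      calc spToLin g⁻¹ u = spToLin g⁻¹ u + c • v + (-c) • v := by module
        _ = _ := by rw [this]
    refine ⟨hv, ⟨-c, hu⟩, fun x hx hx' => ?_⟩
    obtain ⟨a, b, hab⟩ := hg' x hx hx'
    refine ⟨-a + b * c, -b, ?_⟩
    have := inv_mul_app g x
    rw [hab, map_add, map_add, map_smul, map_smul, hv, hu] at this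
    calc spToLin g⁻¹ x = spToLin g⁻¹ x + a • v + b • (u + -c • v) + (-a + b * c) • v + -b • u := by module
      _ = _ := by rw [this]

theorem spE_mem_QS2 {v u w : V} (huv : B u v = 0) (h : B u w = 0) (h' : B v w = 0) : spE u w ∈ QS2 v u := by
  refine ⟨?_, ⟨0, ?_⟩, fun x hx hx' => ⟨0, B x w, ?_⟩⟩
  · rw [spE_apply h, B_symm_zero huv, h', zero_smul, zero_smul, add_zero, add_zero]
  · rw [spE_apply h, B_self, h, zero_smul, zero_smul, zero_smul, add_zero, add_zero]
  · rw [spE_apply h, hx', zero_smul, zero_smul]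

theorem QS2_pgroup {p : ℕ} [Fact p.Prime] [CharP F p] (v u : V) (huv : B u v = 0) : IsPGroup p (QS2 v u) := by
  rintro ⟨g, hg, ⟨c, hc⟩, hg'⟩
  refine ⟨3, Subtype.ext ?_⟩
  show g ^ (p ^ 3) = 1
  apply spToLin_injective
  rw [map_pow, map_one]
  have h3 : ∀ x : V, B (spToLin g x - x) v = 0 := by
    intro x
    rw [map_sub, LinearMap.sub_apply, sub_eq_zero]
    conv_lhs => rw [← hg]
    exact spToLin_isometry g x v
  have h4 : ∀ x : V, B x v = 0 → B (spToLin g x - x) u = 0 := by
    intro x hx
    have h5 : spToLin g (u - c • v) = u := by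
      rw [map_sub, map_smul, hg, hc]; abel
    rw [map_sub, LinearMap.sub_apply, sub_eq_zero]
    conv_lhs => rw [← h5]
    rw [spToLin_isometry, map_sub, map_smul, hx, smul_zero, sub_zero]
  refine equiv_pow_of_unip (p := p) _ 5 3 ?_ (fun x => spToLin g x - x) (fun _ => rfl) (fun x => ?_)
  · have h2 := (Fact.out : p.Prime).two_le
    calc 5 ≤ 2 ^ 3 := by norm_num
      _ ≤ p ^ 3 := Nat.pow_le_pow_left h2 3
  · set D : V → V := fun x => spToLin g x - x with hD
    show D (D (D (D (D x)))) = 0
    have e1 : B (D x) v = 0 := h3 x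
    have e2 : B (D (D x)) v = 0 := h3 _
    have e3 : B (D (D x)) u = 0 := h4 _ e1
    obtain ⟨a, b, hab⟩ := hg' _ e2 e3
    have e4 : D (D (D x)) = a • v + b • u := by
      show spToLin g (D (D x)) - D (D x) = _
      rw [hab]; abel
    rw [e4]
    have e5 : D (a • v + b • u) = (b * c) • v := by
      show spToLin g (a • v + b • u) - (a • v + b • u) = _
      rw [map_add, map_smul, map_smul, hg, hc]; module
    rw [e5]
    show spToLin g ((b * c) • v) - (b * c) • v = 0
    rw [map_smul, hg, sub_self]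

theorem QS2_le {p : ℕ} [Fact p.Prime] [CharP F p] (Q : Sylow p Sp) {v u : V} (huv : B u v = 0)
    (hQ : ∀ g ∈ Q, spToLin g v = v) (hQu : ∀ g ∈ Q, ∃ c : F, spToLin g u = u + c • v) : QS2 v u ≤ Q := by
  refine le_sylow Q _ (QS2_pgroup v u huv) ?_
  rintro s hs g ⟨hg, ⟨d, hd⟩, hg'⟩
  have hs' := hQ s hs
  have hsi := inv_fix hs'
  obtain ⟨c, hc⟩ := hQu s hs
  have hu : spToLin s⁻¹ u = u + (-c) • v := by
    have := inv_mul_app s u
    rw [hc, map_add, map_smul, hsi] at this
    calc spToLin s⁻¹ u = spToLin s⁻¹ u + c • v + (-c) • v := by module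
      _ = _ := by rw [this]
  refine ⟨?_, ⟨d, ?_⟩, fun x hx hx' => ?_⟩
  · rw [map_mul, map_mul, LinearEquiv.mul_apply, LinearEquiv.mul_apply, hsi, hg, hs']
  · rw [map_mul, map_mul, LinearEquiv.mul_apply, LinearEquiv.mul_apply, hu, map_add, map_smul, hg, hd, map_add, map_add,
      map_smul, map_smul, hs', hc]
    module
  · have h1 : B (spToLin s⁻¹ x) v = 0 := by
      conv_lhs => rw [← hsi]
      rw [spToLin_isometry, hx]
    have h2 : B (spToLin s⁻¹ x) u = 0 := by
      have h5 : spToLin s⁻¹ (u + c • v) = u := by rw [map_add, map_smul, hsi, hu]; module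
      conv_lhs => rw [← h5]
      rw [spToLin_isometry, map_add, map_smul, hx, hx', smul_zero, add_zero]
    obtain ⟨a, b, hab⟩ := hg' _ h1 h2
    refine ⟨a + b * c, b, ?_⟩
    rw [map_mul, map_mul, LinearEquiv.mul_apply, LinearEquiv.mul_apply, hab, map_add, map_add, map_smul, map_smul, hs', hc,
      mul_inv_app]
    module

/-- element of the centre of a Sylow subgroup, characteristic two -/
theorem central_two {v u : V} (hm : 3 ≤ m) (h2 : (2 : F) = 0) (hv : v ≠ 0) (huv : B u v = 0) (hu : ¬ ∃ c : F, u = c • v)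
    {z : Sp} (hzv : spToLin z v = v) (h1 : ∀ w, B v w = 0 → z * spE v w = spE v w * z)
    (h2' : ∀ w, B u w = 0 → B v w = 0 → z * spE u w = spE u w * z) : ∃ a b : F, z = spE v (b • u) * spT v a := by
  obtain ⟨x0, hx0⟩ := exists_dual hv
  set e := spToLin z x0 - x0 with he
  have hev : B e v = 0 := by
    rw [he, map_sub, LinearMap.sub_apply, sub_eq_zero]
    conv_lhs => rw [← hzv]
    exact spToLin_isometry z x0 v
  have hzx : spToLin z x0 = x0 + e := by rw [he]; abel
  have hw : ∀ w, B w v = 0 → spToLin z w = w + B w e • v := by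
    intro w hw
    obtain ⟨c, hc, -⟩ := comm_spE hv hzv (B_symm_zero hw) (h1 w (B_symm_zero hw))
    have h3 := spToLin_isometry z w x0
    rw [hc, hzx] at h3
    simp only [map_add, map_smul, LinearMap.add_apply, LinearMap.smul_apply, smul_eq_mul, B_symm_zero hev, mul_zero,
      add_zero] at h3
    have h4 : B v x0 = -1 := by rw [B_neg, hx0]
    rw [h4] at h3
    rw [hc]
    congr 2
    linear_combination -h3
  have hve := B_symm_zero hev
  -- strip `spE v e`
  obtain ⟨a, ha⟩ := eq_tr_of_fix (z := (spE v e)⁻¹ * z) hv (by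
    intro w hwv
    rw [map_mul, LinearEquiv.mul_apply, hw w hwv]
    have h3 : w + B w e • v = spToLin (spE v e) w := by
      rw [spE_apply hve, hwv, zero_smul, add_zero]
    rw [h3, inv_mul_app])
  have hz : z = spE v e * spT v a := by rw [← ha]; group
  -- `e` is fixed modulo `v` by the elements `spE u w`
  have hee : ∀ w, B u w = 0 → B v w = 0 → ∃ c : F, B e u • w + B e w • u = c • v := by
    intro w hw1 hw2
    set g := spE u w with hg
    have hgv : spToLin g v = v := by
      rw [hg, spE_apply hw1, B_symm_zero huv, hw2, zero_smul, zero_smul, add_zero, add_zero]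
    have hge : B v (spToLin g e) = 0 := by
      conv_lhs => rw [← hgv]
      rw [spToLin_isometry, hve]
    have h3 : g * z * g⁻¹ = z := by rw [← h2' w hw1 hw2, mul_inv_cancel_right]
    have h4 : spE v (spToLin g e) = spE v e := by
      have h5 : g * z * g⁻¹ = (g * spE v e * g⁻¹) * (g * spT v a * g⁻¹) := by rw [hz]; group
      rw [h3, spE_conj, spT_conj, ← spToLin_apply, hgv, hz] at h5
      exact (mul_right_cancel h5).symm
    have h5 := congrArg (fun g => spToLin g x0) h4
    simp only [spE_apply hge, spE_apply hve, hx0, one_smul] at h5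
    have h6 : spToLin g e = e + B e u • w + B e w • u := by rw [hg, spE_apply hw1]
    refine ⟨B x0 e - B x0 (spToLin g e), ?_⟩
    calc B e u • w + B e w • u = (x0 + spToLin g e + B x0 (spToLin g e) • v) - x0 - e - B x0 (spToLin g e) • v := by
          rw [h6]; abel
      _ = (x0 + e + B x0 e • v) - x0 - e - B x0 (spToLin g e) • v := by rw [h5]
      _ = _ := by module
  have heu : B e u = 0 := by
    obtain ⟨w, hw1, hw2, hw3⟩ := exists_perp_not_span hm u v
    obtain ⟨c, hc⟩ := hee w (B_symm_zero hw1) (B_symm_zero hw2)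
    by_contra hne
    apply hw3
    refine ⟨-((B e u)⁻¹ * B e w), (B e u)⁻¹ * c, ?_⟩
    calc w = (B e u)⁻¹ • (B e u • w + B e w • u) - ((B e u)⁻¹ * B e w) • u := by
          rw [smul_add, smul_smul, inv_mul_cancel₀ hne, one_smul, smul_smul]; abel
      _ = (B e u)⁻¹ • (c • v) - ((B e u)⁻¹ * B e w) • u := by rw [hc]
      _ = _ := by module
  obtain ⟨b, b', hb⟩ := perp2 (u := u) (v := v) (y := e) (by
    intro w hw1 hw2
    obtain ⟨c, hc⟩ := hee w (B_symm_zero hw1) (B_symm_zero hw2)
    rw [heu, zero_smul, zero_add] at hc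
    by_contra hne
    apply hu
    have hne' : B e w ≠ 0 := fun h => hne (B_symm_zero h)
    exact ⟨(B e w)⁻¹ * c, by rw [mul_smul, ← hc, smul_smul, inv_mul_cancel₀ hne', one_smul]⟩)
  refine ⟨a, b, ?_⟩
  rw [hz]
  congr 1
  apply lin_ext
  intro x
  have h3 : B v (b • u) = 0 := by rw [map_smul, B_symm_zero huv, smul_zero]
  rw [spE_apply hve, spE_apply h3, hb]
  simp only [map_add, map_smul, smul_eq_mul]
  have h4 : (B x v * b' + b' * B x v) • v = 0 := by
    have : B x v * b' + b' * B x v = 2 * (B x v * b') := by ring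
    rw [this, h2, zero_mul, zero_smul]
  calc _ = x + B x v • b • u + (b * B x u) • v + (B x v * b' + b' * B x v) • v := by module
    _ = _ := by rw [h4, add_zero]

/-- the candidate centre -/
def ZS (v u : V) : Set Sp := {z | ∃ a b : F, z = spE v (b • u) * spT v a}

theorem cen_sylow_two [Finite F] [CharP F 2] (hm : 3 ≤ m) (Q : Sylow 2 Sp) :
    ∃ v u : V, v ≠ 0 ∧ B u v = 0 ∧ (¬ ∃ c : F, u = c • v) ∧ cen (Q : Subgroup Sp) = ZS v u := by
  haveI : Fact (Nat.Prime 2) := ⟨Nat.prime_two⟩
  have h2 : (2 : F) = 0 := by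
    have := CharP.cast_eq_zero F 2
    exact_mod_cast this
  obtain ⟨v, hv, hQ⟩ := exists_fixed_vec (by omega) (Q : Subgroup Sp) Q.2
  have hle := QS_le Q hQ
  obtain ⟨u, hu1, hu2, hu3⟩ := exists_fixed_mod (Q : Subgroup Sp) Q.2 spToLin (Submodule.span F {v}) (LinearMap.ker ((B).flip v))
    (by
      intro h
      obtain ⟨w, hw1, hw2, hw3⟩ := exists_perp_not_span hm v v
      have h3 := h (x := w) hw1
      rw [Submodule.mem_span_singleton] at h3
      obtain ⟨a, ha⟩ := h3
      exact hw3 ⟨a, 0, by rw [zero_smul, add_zero, ha]⟩)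
    (by
      intro g hg x hx
      have hx' : B x v = 0 := hx
      show B (spToLin g x) v = 0
      rw [← hQ g hg, spToLin_isometry, hx'])
    (by
      intro g hg x hx
      rw [Submodule.mem_span_singleton] at hx ⊢
      obtain ⟨a, rfl⟩ := hx
      exact ⟨a, by rw [map_smul, hQ g hg]⟩)
  have huv : B u v = 0 := hu1
  have hQu : ∀ g ∈ Q, ∃ c : F, spToLin g u = u + c • v := by
    intro g hg
    have h := hu3 g hg
    rw [Submodule.mem_span_singleton] at h
    obtain ⟨c, hc⟩ := h
    exact ⟨c, by rw [hc]; abel⟩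
  have hle2 := QS2_le Q huv hQ hQu
  have hu : ¬ ∃ c : F, u = c • v := by
    rintro ⟨c, hc⟩
    exact hu2 (Submodule.mem_span_singleton.2 ⟨c, hc.symm⟩)
  refine ⟨v, u, hv, huv, hu, ?_⟩
  ext z
  constructor
  · rintro ⟨hz, hc⟩
    exact central_two hm h2 hv huv hu (hQ z hz) (fun w hw => (hc _ (hle (spE_mem_QS hw))).symm)
      (fun w hw hw' => (hc _ (hle2 (spE_mem_QS2 huv hw hw'))).symm)
  · rintro ⟨a, b, rfl⟩
    have h3 : B v (b • u) = 0 := by rw [map_smul, B_symm_zero huv, smul_zero]
    refine ⟨Q.mul_mem (hle (spE_mem_QS h3)) (hle (spT_mem_QS v a)), fun y hy => ?_⟩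
    have h1 : y * (spE v (b • u) * spT v a) * y⁻¹ = spE v (b • u) * spT v a := by
      have h5 : y * (spE v (b • u) * spT v a) * y⁻¹ = (y * spE v (b • u) * y⁻¹) * (y * spT v a * y⁻¹) := by group
      rw [h5, spE_conj, spT_conj, ← spToLin_apply, hQ y hy]
      congr 1
      obtain ⟨c, hc⟩ := hQu y hy
      rw [map_smul, hc]
      have h6 : B v (b • (u + c • v)) = 0 := by
        rw [map_smul, map_add, map_smul, B_symm_zero huv, B_self]; simp
      apply lin_ext
      intro x
      rw [spE_apply h3, spE_apply h6]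
      simp only [map_add, map_smul, smul_eq_mul]
      have h4 : (B x v * b * c + b * c * B x v) • v = 0 := by
        have : B x v * b * c + b * c * B x v = 2 * (B x v * b * c) := by ring
        rw [this, h2, zero_mul, zero_smul]
      calc _ = x + B x v • b • u + (b * B x u) • v + (B x v * b * c + b * c * B x v) • v := by module
        _ = _ := by rw [h4, add_zero]
    exact mul_inv_eq_iff_eq_mul.mp h1

end CfsgLib.AutPSp27
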