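import Cfsg.Agent.LibAutPSp27b
import Cfsg.Agent.LibFTPG27

set_option autoImplicit false

/-! Automorphisms of `Sp_{2m}(F)`, characteristic two, permute the transvection groups. -/

namespace CfsgLib.AutPSp27

open Matrix Cfsg.Agent.H22 CfsgLib.SylCen27 CfsgLib.FTPG27

variable {m : ℕ} {F : Type*} [Field F]

local notation "V" => (Fin m ⊕ Fin m → F)
local notation "Sp" => (Matrix.symplecticGroup (Fin m) F)
local notation "B" => (spB m F)

theorem dual_one {v u : V} (hv : v ≠ 0) (hu : ¬ ∃ c : F, u = c • v) : ∃ x, B x v = 0 ∧ B x u = 1 := by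
  by_contra hcon
  push Not at hcon
  apply hu
  apply mem_of_perp_perp hv
  intro w hw
  by_contra hne
  have hne' : B w u ≠ 0 := fun h => hne (B_symm_zero h)
  apply hcon ((B w u)⁻¹ • w)
  · rw [map_smul, LinearMap.smul_apply, hw, smul_zero]
  · rw [map_smul, LinearMap.smul_apply, smul_eq_mul, inv_mul_cancel₀ hne']

theorem not_span_symm {v u : V} (hv : v ≠ 0) (hu : ¬ ∃ c : F, u = c • v) : u ≠ 0 ∧ ¬ ∃ c : F, v = c • u := by
  refine ⟨fun h => hu ⟨0, by rw [h, zero_smul]⟩, ?_⟩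
  rintro ⟨c, hc⟩
  have hc0 : c ≠ 0 := by
    rintro rfl
    exact hv (by rw [hc, zero_smul])
  exact hu ⟨c⁻¹, by rw [hc, smul_smul, inv_mul_cancel₀ hc0, one_smul]⟩

theorem dual_pair {v u : V} (hv : v ≠ 0) (hu : ¬ ∃ c : F, u = c • v) :
    (∃ x, B x v = 0 ∧ B x u = 1) ∧ ∃ x, B x v = 1 ∧ B x u = 0 := by
  refine ⟨dual_one hv hu, ?_⟩
  obtain ⟨hu0, h⟩ := not_span_symm hv hu
  obtain ⟨x, h1, h2⟩ := dual_one hu0 h
  exact ⟨x, h2, h1⟩

theorem Z_apply {v u : V} (huv : B u v = 0) (a b : F) (x : V) :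
    spToLin (spE v (b • u) * spT v a) x = x + B x v • (b • u + a • v) + (b * B x u) • v := by
  have h3 : B v (b • u) = 0 := by rw [map_smul, B_symm_zero huv, smul_zero]
  rw [map_mul, LinearEquiv.mul_apply, tr_apply, map_add, map_smul, spE_apply h3, spE_apply h3, B_self, h3, map_smul, smul_eq_mul]
  module

theorem spT_inj {v : V} (hv : v ≠ 0) {a b : F} (h : (spT v a : Sp) = spT v b) : a = b := by
  obtain ⟨x0, hx0⟩ := exists_dual hv
  have h1 := congrArg (fun g => spToLin g x0) h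
  simp only [tr_apply, hx0, mul_one, add_right_inj] at h1
  exact smul_left_injective F hv h1

theorem spT_eq_one_iff {v : V} (hv : v ≠ 0) {a : F} : (spT v a : Sp) = 1 ↔ a = 0 := by
  rw [← spT_zero v]
  exact ⟨fun h => spT_inj hv h, fun h => by rw [h]⟩

/-- rank one elements of `ZS` -/
theorem Z_rank_one {v u v' : V} (hv : v ≠ 0) (huv : B u v = 0) (hu : ¬ ∃ c : F, u = c • v) {a b a' : F}
    (h : spE v (b • u) * spT v a = spT v' a') (hne : spT v' a' ≠ 1) : b = 0 ∧ PF F v v' := by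
  obtain ⟨⟨x1, h11, h12⟩, x2, h21, h22⟩ := dual_pair hv hu
  have e1 : b • v = (a' * B x1 v') • v' := by
    have h1 := congrArg (fun g => spToLin g x1) h
    simp only [Z_apply huv, tr_apply, h11, h12, zero_smul, add_zero, mul_one, add_right_inj] at h1
    exact h1
  have e2 : b • u + a • v = (a' * B x2 v') • v' := by
    have h1 := congrArg (fun g => spToLin g x2) h
    simp only [Z_apply huv, tr_apply, h21, h22, mul_zero, zero_smul, add_zero, one_smul, add_right_inj] at h1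
    exact h1
  by_cases hb : b = 0
  · refine ⟨hb, ?_⟩
    rw [hb, zero_smul, zero_add] at e2
    by_cases ha : a = 0
    · exfalso
      apply hne
      rw [← h, hb, ha]
      apply lin_ext
      intro x
      rw [Z_apply huv, map_one]
      simp
    · have hc : a' * B x2 v' ≠ 0 := by
        intro h0
        rw [h0, zero_smul] at e2
        exact smul_ne_zero ha hv e2
      exact (PF.smul ha v).trans (e2 ▸ (PF.smul hc v').symm)
  · exfalso
    have hc : a' * B x1 v' ≠ 0 := by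
      intro h0
      rw [h0, zero_smul] at e1
      exact smul_ne_zero hb hv e1
    apply hu
    refine ⟨b⁻¹ * (a' * B x2 v' * ((a' * B x1 v')⁻¹ * b) - a), ?_⟩
    have e3 : v' = ((a' * B x1 v')⁻¹ * b) • v := by
      rw [mul_smul, e1, smul_smul, inv_mul_cancel₀ hc, one_smul]
    have e4 : b • u = (a' * B x2 v' * ((a' * B x1 v')⁻¹ * b) - a) • v := by
      rw [sub_smul, mul_smul (a' * B x2 v'), ← e3, ← e2]; abel
    rw [mul_smul, ← e4, smul_smul, inv_mul_cancel₀ hb, one_smul]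

/-- rank two elements of `ZS`: the image of `z - 1` -/
theorem Z_rank_two {v u : V} (hv : v ≠ 0) (huv : B u v = 0) (hu : ¬ ∃ c : F, u = c • v) {a b : F}
    (hb : b ≠ 0) (y : V) : (∃ x, y = spToLin (spE v (b • u) * spT v a) x - x) ↔ ∃ s t : F, y = s • v + t • u := by
  obtain ⟨⟨x1, h11, h12⟩, x2, h21, h22⟩ := dual_pair hv hu
  constructor
  · rintro ⟨x, rfl⟩
    refine ⟨B x v * a + b * B x u, B x v * b, ?_⟩
    rw [Z_apply huv]
    module
  · rintro ⟨s, t, rfl⟩
    refine ⟨(b⁻¹ * (s - t * b⁻¹ * a)) • x1 + (t * b⁻¹) • x2, ?_⟩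
    rw [Z_apply huv]
    simp only [map_add, map_smul, LinearMap.add_apply, LinearMap.smul_apply, smul_eq_mul, h11, h12, h21, h22]
    have e1 : t • u = (t * b⁻¹ * b) • u := by rw [mul_assoc, inv_mul_cancel₀ hb, mul_one]
    have e2 : (s - t * b⁻¹ * a) • v = (b * b⁻¹ * (s - t * b⁻¹ * a)) • v := by rw [mul_inv_cancel₀ hb, one_mul]
    calc s • v + t • u = (s - t * b⁻¹ * a) • v + t • u + (t * b⁻¹ * a) • v := by module
      _ = (b * b⁻¹ * (s - t * b⁻¹ * a)) • v + (t * b⁻¹ * b) • u + (t * b⁻¹ * a) • v := by rw [← e1, ← e2]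
      _ = _ := by module

/-- the group of all elements attached to symmetric tensors on a totally isotropic line -/
def AS (v u : V) : Set Sp := {g | ∃ a b c : F, ∀ x, spToLin g x = x + B x v • (a • v + b • u) + B x u • (b • v + c • u)}

theorem AS_mul {v u : V} (huv : B u v = 0) {g h : Sp} (hg : g ∈ AS v u) (hh : h ∈ AS v u) : g * h ∈ AS v u := by
  obtain ⟨a, b, c, hg⟩ := hg
  obtain ⟨a', b', c', hh⟩ := hh
  refine ⟨a' + a, b' + b, c' + c, fun x => ?_⟩
  rw [map_mul, LinearEquiv.mul_apply, hh]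
  rw [hg]
  simp only [map_add, map_smul, LinearMap.add_apply, LinearMap.smul_apply, smul_eq_mul, huv, B_symm_zero huv, B_self]
  module

theorem spT_mem_AS {v u : V} (s t a : F) : spT (s • v + t • u) a ∈ AS v u := by
  refine ⟨a * s * s, a * s * t, a * t * t, fun x => ?_⟩
  rw [tr_apply]
  simp only [map_add, map_smul, smul_eq_mul]
  module

theorem spE_mem_AS {v u : V} (huv : B u v = 0) (s t s' t' : F) : spE (s • v + t • u) (s' • v + t' • u) ∈ AS v u := by
  have h : B (s • v + t • u) (s' • v + t' • u) = 0 := by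
    simp only [map_add, map_smul, LinearMap.add_apply, LinearMap.smul_apply, smul_eq_mul, huv, B_symm_zero huv, B_self]
    ring
  refine ⟨s * s' + s' * s, s * t' + s' * t, t * t' + t' * t, fun x => ?_⟩
  rw [spE_apply h]
  simp only [map_add, map_smul, smul_eq_mul]
  module

theorem ZS_subset_AS {v u v' u' : V} (huv : B u v = 0) {s t s' t' : F} (hv' : v' = s • v + t • u) (hu' : u' = s' • v + t' • u) :
    ZS v' u' ⊆ AS v u := by
  rintro _ ⟨a, b, rfl⟩
  apply AS_mul huv
  · have : b • u' = (b * s') • v + (b * t') • u := by rw [hu']; module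
    rw [this, hv']
    exact spE_mem_AS huv _ _ _ _
  · rw [hv']
    exact spT_mem_AS _ _ _

theorem exists_triple (hm : 3 ≤ m) {v : V} (hv : v ≠ 0) : ∃ u1 u2 u3 : V, B u1 v = 0 ∧ B u2 v = 0 ∧ B u3 v = 0 ∧
    ∀ a b1 b2 b3 : F, a • v + b1 • u1 + b2 • u2 + b3 • u3 = 0 → b1 = 0 ∧ b2 = 0 ∧ b3 = 0 := by
  classical
  set e0 : V := Pi.single (Sum.inl ⟨0, by omega⟩) 1 with he0
  set e1 : V := Pi.single (Sum.inl ⟨1, by omega⟩) 1 with he1
  set e2 : V := Pi.single (Sum.inl ⟨2, by omega⟩) 1 with he2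
  set e3 : V := Pi.single (Sum.inr ⟨1, by omega⟩) 1 with he3
  have h0 : e0 ≠ 0 := by
    intro h
    have := congrFun h (Sum.inl ⟨0, by omega⟩)
    simp [he0] at this
  obtain ⟨g, hg⟩ := sp_transitive e0 v h0 hv
  have hg' : spToLin g e0 = v := hg
  have key : ∀ x y : V, B x y = ∑ i, (x (Sum.inr i) * y (Sum.inl i) - x (Sum.inl i) * y (Sum.inr i)) := fun x y => by
    rw [spB_apply, sympForm_eq_sum]
  refine ⟨spToLin g e1, spToLin g e2, spToLin g e3, ?_, ?_, ?_, ?_⟩
  · rw [← hg', spToLin_isometry, key]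
    refine Finset.sum_eq_zero fun i _ => ?_
    simp [he0, he1]
  · rw [← hg', spToLin_isometry, key]
    refine Finset.sum_eq_zero fun i _ => ?_
    simp [he0, he2]
  · rw [← hg', spToLin_isometry, key]
    refine Finset.sum_eq_zero fun i _ => ?_
    by_cases hi : i = ⟨0, by omega⟩
    · subst hi
      simp [he0, he3]
    · have : (Sum.inl i : Fin m ⊕ Fin m) ≠ Sum.inl ⟨0, by omega⟩ := fun h => hi (Sum.inl_injective h)
      simp [he0, he3, Pi.single_apply, this, hi]
  · intro a b1 b2 b3 h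
    rw [← hg', ← map_smul, ← map_smul, ← map_smul, ← map_smul, ← map_add, ← map_add, ← map_add,
      LinearEquiv.map_eq_zero_iff] at h
    have i1 := congrFun h (Sum.inl ⟨1, by omega⟩)
    have i2 := congrFun h (Sum.inl ⟨2, by omega⟩)
    have i3 := congrFun h (Sum.inr ⟨1, by omega⟩)
    simp [he0, he1, he2, he3, Pi.single_apply] at i1 i2 i3
    exact ⟨i1, i2, i3⟩

theorem ZS_map [Finite F] [CharP F 2] (hm : 3 ≤ m) (α : Sp ≃* Sp) {v u : V} (hv : v ≠ 0) (huv : B u v = 0)
    (hu : ¬ ∃ c : F, u = c • v) :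
    ∃ v' u' : V, v' ≠ 0 ∧ B u' v' = 0 ∧ (¬ ∃ c : F, u' = c • v') ∧ α '' ZS v u = ZS v' u' := by
  haveI : Fact (Nat.Prime 2) := ⟨Nat.prime_two⟩
  haveI : Finite Sp := Subtype.finite
  obtain ⟨Q0⟩ : Nonempty (Sylow 2 Sp) := inferInstance
  obtain ⟨v0, u0, hv0, huv0, hu0, h0⟩ := cen_sylow_two hm Q0
  have hli : ∀ {v u : V}, v ≠ 0 → (¬ ∃ c : F, u = c • v) → LinearIndependent F ![v, u] := by
    intro v u hv hu
    rw [LinearIndependent.pair_iff' hv]
    intro a ha
    exact hu ⟨a, ha.symm⟩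
  obtain ⟨g, hg1, hg2⟩ := sp_transitive_pair v0 u0 v u (hli hv0 hu0) (hli hv hu) (by
    rw [← spB_apply, ← spB_apply, B_symm_zero huv0, B_symm_zero huv])
  have hg1' : spToLin g v0 = v := hg1
  have hg2' : spToLin g u0 = u := hg2
  have hZ : ZS v u = (MulAut.conj g) '' ZS v0 u0 := by
    ext z
    constructor
    · rintro ⟨a, b, rfl⟩
      refine ⟨_, ⟨a, b, rfl⟩, ?_⟩
      rw [MulAut.conj_apply]
      have h5 : g * (spE v0 (b • u0) * spT v0 a) * g⁻¹ = (g * spE v0 (b • u0) * g⁻¹) * (g * spT v0 a * g⁻¹) := by group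
      rw [h5, spE_conj, spT_conj, ← spToLin_apply, hg1', map_smul, hg2']
    · rintro ⟨_, ⟨a, b, rfl⟩, rfl⟩
      refine ⟨a, b, ?_⟩
      rw [MulAut.conj_apply]
      have h5 : g * (spE v0 (b • u0) * spT v0 a) * g⁻¹ = (g * spE v0 (b • u0) * g⁻¹) * (g * spT v0 a * g⁻¹) := by group
      rw [h5, spE_conj, spT_conj, ← spToLin_apply, hg1', map_smul, hg2']
  obtain ⟨Q', hQ'⟩ := sylow_cen (p := 2) (MonoidHom.id Sp) (MonoidHom.id Sp) Function.surjective_id Function.surjective_id
    (fun x k _ h => h) (fun x k _ h => h) ((MulAut.conj g).trans α) Q0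
  obtain ⟨v', u', hv', huv', hu', h'⟩ := cen_sylow_two hm Q'
  refine ⟨v', u', hv', huv', hu', ?_⟩
  rw [h', h0] at hQ'
  simp only [MonoidHom.coe_id, Set.image_id] at hQ'
  rw [hZ, ← hQ', ← Set.image_comp]
  rfl

theorem span_ZS {v u v' u' : V} (hv : v ≠ 0) (huv : B u v = 0) (hu : ¬ ∃ c : F, u = c • v)
    (hv' : v' ≠ 0) (huv' : B u' v' = 0) (hu' : ¬ ∃ c : F, u' = c • v') {a b a' b' : F} (hb : b ≠ 0)
    (h : spE v (b • u) * spT v a = spE v' (b' • u') * spT v' a') (hb' : b' ≠ 0) :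
    (∃ s t : F, v' = s • v + t • u) ∧ ∃ s t : F, u' = s • v + t • u := by
  constructor
  · rw [← Z_rank_two hv huv hu hb (a := a), h, Z_rank_two hv' huv' hu' hb']
    exact ⟨1, 0, by rw [one_smul, zero_smul, add_zero]⟩
  · rw [← Z_rank_two hv huv hu hb (a := a), h, Z_rank_two hv' huv' hu' hb']
    exact ⟨0, 1, by rw [one_smul, zero_smul, zero_add]⟩

/-- **Automorphisms of `Sp`, characteristic two, permute the transvection groups.** -/
theorem map_root_two [Finite F] [CharP F 2] (hm : 3 ≤ m) (α : Sp ≃* Sp) {v : V} (hv : v ≠ 0) :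
    ∃ v' : V, v' ≠ 0 ∧ α '' (spRoot v : Set Sp) = spRoot v' := by
  obtain ⟨u1, u2, u3, hu1, hu2, hu3, hli⟩ := exists_triple hm hv
  have hn1 : ¬ ∃ c : F, u1 = c • v := by
    rintro ⟨c, hc⟩
    exact one_ne_zero (hli (-c) 1 0 0 (by rw [hc]; module)).1
  have hn2 : ¬ ∃ c : F, u2 = c • v := by
    rintro ⟨c, hc⟩
    exact one_ne_zero (hli (-c) 0 1 0 (by rw [hc]; module)).2.1
  have hn3 : ¬ ∃ c : F, u3 = c • v := by
    rintro ⟨c, hc⟩
    exact one_ne_zero (hli (-c) 0 0 1 (by rw [hc]; module)).2.2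
  obtain ⟨v1, w1, hv1, hw1, hn1', e1⟩ := ZS_map hm α hv hu1 hn1
  obtain ⟨v2, w2, hv2, hw2, hn2', e2⟩ := ZS_map hm α hv hu2 hn2
  obtain ⟨v3, w3, hv3, hw3, hn3', e3⟩ := ZS_map hm α hv hu3 hn3
  have hT : ∀ (u : V) (c : F), spT v c ∈ ZS v u := by
    intro u c
    refine ⟨c, 0, ?_⟩
    rw [zero_smul]
    have : (spE v 0 : Sp) = 1 := by
      apply lin_ext
      intro x
      rw [spE_apply (by rw [map_zero]), map_one]
      simp
    rw [this, one_mul]
  have ht : ∀ c, c ≠ 0 → α (spT v c) ≠ 1 := by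
    intro c hc h
    rw [← map_one α] at h
    exact hc ((spT_eq_one_iff hv).1 (α.injective h))
  have m1 : ∀ c, α (spT v c) ∈ ZS v1 w1 := fun c => by rw [← e1]; exact ⟨_, hT _ c, rfl⟩
  have m2 : ∀ c, α (spT v c) ∈ ZS v2 w2 := fun c => by rw [← e2]; exact ⟨_, hT _ c, rfl⟩
  have m3 : ∀ c, α (spT v c) ∈ ZS v3 w3 := fun c => by rw [← e3]; exact ⟨_, hT _ c, rfl⟩
  have hE0 : ∀ v : V, (spE v 0 : Sp) = 1 := by
    intro v
    apply lin_ext
    intro x
    rw [spE_apply (by rw [map_zero]), map_one]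
    simp
  obtain ⟨a1, b1, h1⟩ := m1 1
  obtain ⟨a2, b2, h2⟩ := m2 1
  obtain ⟨a3, b3, h3⟩ := m3 1
  by_cases hb1 : b1 = 0
  · -- rank one
    refine ⟨v1, hv1, ?_⟩
    have h1' : α (spT v 1) = spT v1 a1 := by rw [h1, hb1, zero_smul, hE0, one_mul]
    have hne : (spT v1 a1 : Sp) ≠ 1 := by rw [← h1']; exact ht 1 one_ne_zero
    have hp : PF F v2 v1 := (Z_rank_one hv2 hw2 hn2' (h2.symm.trans h1') hne).2
    have hsub : α '' (spRoot v : Set Sp) ⊆ spRoot v1 := by
      rintro _ ⟨_, ⟨c, rfl⟩, rfl⟩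
      obtain ⟨a, b, h⟩ := m1 c
      obtain ⟨a', b', h'⟩ := m2 c
      by_cases hb : b = 0
      · exact ⟨a, by rw [h, hb, zero_smul, hE0, one_mul]⟩
      exfalso
      have hc : c ≠ 0 := by
        rintro rfl
        rw [spT_zero, map_one] at h
        have h5 : spE v1 (b • w1) * spT v1 a = spT v1 0 := by rw [spT_zero, h]
        obtain ⟨⟨x1, h11, h12⟩, -⟩ := dual_pair hv1 hn1'
        have h6 := congrArg (fun g => spToLin g x1) h5
        simp only [Z_apply hw1, tr_apply, h11, h12, zero_smul, add_zero, mul_one, mul_zero, zero_mul] at h6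
        rw [add_eq_left] at h6
        exact smul_ne_zero hb hv1 h6
      by_cases hb' : b' = 0
      · have h5 : α (spT v c) = spT v2 a' := by rw [h', hb', zero_smul, hE0, one_mul]
        exact hb (Z_rank_one hv1 hw1 hn1' (h.symm.trans h5) (by rw [← h5]; exact ht c hc)).1
      · obtain ⟨⟨s, t, hst⟩, s', t', hst'⟩ := span_ZS hv1 hw1 hn1' hv2 hw2 hn2' hb (h.symm.trans h') hb'
        -- `ZS v2 w2 = ZS v1 w1`
        obtain ⟨k, hk, hk'⟩ := hp
        -- `v1 = k v2`
        have ht' : t' ≠ 0 := by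
          rintro rfl
          apply hn2'
          refine ⟨s' * k, ?_⟩
          rw [hst', zero_smul, add_zero, hk', smul_smul]
        have hmem : spE v u2 ∈ ZS v u1 := by
          have h6 : α (spE v u2) ∈ ZS v1 w1 := by
            have h7 : α (spE v u2) ∈ ZS v2 w2 := by
              rw [← e2]
              refine ⟨_, ⟨0, 1, ?_⟩, rfl⟩
              rw [one_smul, spT_zero, mul_one]
            obtain ⟨a5, b5, h5⟩ := h7
            have hv2' : v2 = k⁻¹ • v1 := by rw [hk', smul_smul, inv_mul_cancel₀ hk, one_smul]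
            refine ⟨a5 * k⁻¹ * k⁻¹ + 2 * (b5 * k⁻¹ * s'), b5 * k⁻¹ * t', ?_⟩
            rw [h5]
            apply lin_ext
            intro x
            rw [Z_apply hw2, Z_apply hw1, hv2', hst']
            simp only [map_smul, map_add, smul_eq_mul]
            module
          rw [← e1] at h6
          obtain ⟨z, hz, hz'⟩ := h6
          rw [← α.injective hz']
          exact hz
        obtain ⟨a5, b5, h5⟩ := hmem
        obtain ⟨x0, hx0⟩ := exists_dual hv
        have h6 := congrArg (fun g => spToLin g x0) h5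
        simp only [spE_apply (B_symm_zero hu2), Z_apply hu1, hx0, one_smul] at h6
        have h7 := hli (B x0 u2 - (a5 + b5 * B x0 u1)) (-b5) 1 0 (by
          have h8 : x0 + u2 + B x0 u2 • v - (x0 + (b5 • u1 + a5 • v) + (b5 * B x0 u1) • v) = 0 := by rw [h6, sub_self]
          rw [← h8]; module)
        exact one_ne_zero h7.2.1
    have hcard : ∀ {v : V}, v ≠ 0 → (spRoot v : Set Sp).ncard = Nat.card F := by
      intro v hv
      rw [← Nat.card_coe_set_eq]
      symm
      apply Nat.card_eq_of_bijective (fun c : F => (⟨spT v c, ⟨c, rfl⟩⟩ : (spRoot v : Set Sp)))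
      constructor
      · intro a b hab
        exact spT_inj hv (congrArg Subtype.val hab)
      · rintro ⟨_, ⟨c, rfl⟩⟩
        exact ⟨c, rfl⟩
    haveI : Finite Sp := Subtype.finite
    apply Set.eq_of_subset_of_ncard_le hsub
    rw [Set.ncard_image_of_injective _ α.injective, hcard hv, hcard hv1]
  · -- rank two
    exfalso
    have hne1 := ht 1 one_ne_zero
    have hb2 : b2 ≠ 0 := by
      rintro rfl
      have h5 : α (spT v 1) = spT v2 a2 := by rw [h2, zero_smul, hE0, one_mul]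
      exact hb1 (Z_rank_one hv1 hw1 hn1' (h1.symm.trans h5) (by rw [← h5]; exact hne1)).1
    have hb3 : b3 ≠ 0 := by
      rintro rfl
      have h5 : α (spT v 1) = spT v3 a3 := by rw [h3, zero_smul, hE0, one_mul]
      exact hb1 (Z_rank_one hv1 hw1 hn1' (h1.symm.trans h5) (by rw [← h5]; exact hne1)).1
    obtain ⟨⟨s2, t2, hst2⟩, s2', t2', hst2'⟩ := span_ZS hv1 hw1 hn1' hv2 hw2 hn2' hb1 (h1.symm.trans h2) hb2
    obtain ⟨⟨s3, t3, hst3⟩, s3', t3', hst3'⟩ := span_ZS hv1 hw1 hn1' hv3 hw3 hn3' hb1 (h1.symm.trans h3) hb3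
    have s1 : ZS v1 w1 ⊆ AS v1 w1 := ZS_subset_AS hw1 (s := 1) (t := 0) (s' := 0) (t' := 1)
      (by rw [one_smul, zero_smul, add_zero]) (by rw [one_smul, zero_smul, zero_add])
    have s2'' : ZS v2 w2 ⊆ AS v1 w1 := ZS_subset_AS hw1 hst2 hst2'
    have s3'' : ZS v3 w3 ⊆ AS v1 w1 := ZS_subset_AS hw1 hst3 hst3'
    -- the map `F^4 → AS`
    have hmem : ∀ x : F × F × F × F, α (spE v (x.1 • u1) * spE v (x.2.1 • u2) * spE v (x.2.2.1 • u3) * spT v x.2.2.2) ∈ AS v1 w1 := by
      intro x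
      rw [map_mul, map_mul, map_mul]
      refine AS_mul hw1 (AS_mul hw1 (AS_mul hw1 ?_ ?_) ?_) (s1 (m1 _))
      · apply s1
        rw [← e1]
        exact ⟨_, ⟨0, x.1, by rw [spT_zero, mul_one]⟩, rfl⟩
      · apply s2''
        rw [← e2]
        exact ⟨_, ⟨0, x.2.1, by rw [spT_zero, mul_one]⟩, rfl⟩
      · apply s3''
        rw [← e3]
        exact ⟨_, ⟨0, x.2.2.1, by rw [spT_zero, mul_one]⟩, rfl⟩
    choose fa fb fc hf using hmem
    have hinj : Function.Injective (fun x : F × F × F × F => (fa x, fb x, fc x)) := by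
      intro x y hxy
      simp only [Prod.mk.injEq] at hxy
      have h5 : α (spE v (x.1 • u1) * spE v (x.2.1 • u2) * spE v (x.2.2.1 • u3) * spT v x.2.2.2) =
          α (spE v (y.1 • u1) * spE v (y.2.1 • u2) * spE v (y.2.2.1 • u3) * spT v y.2.2.2) := by
        apply lin_ext
        intro z
        rw [hf, hf, hxy.1, hxy.2.1, hxy.2.2]
      have h6 := α.injective h5
      have hvu : ∀ (u : V) (c : F), B u v = 0 → B v (c • u) = 0 := fun u c h => by rw [map_smul, B_symm_zero h, smul_zero]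
      have h7 : ∀ (x : F × F × F × F) (z : V), B z v = 0 →
          spToLin (spE v (x.1 • u1) * spE v (x.2.1 • u2) * spE v (x.2.2.1 • u3) * spT v x.2.2.2) z =
            z + B z (x.1 • u1 + x.2.1 • u2 + x.2.2.1 • u3) • v := by
        intro x z hz
        have step : ∀ (w : V) (k : F), B v w = 0 → spToLin (spE v w) (z + k • v) = z + (k + B z w) • v := by
          intro w k hw
          rw [spE_apply hw]
          simp only [map_add, map_smul, LinearMap.add_apply, LinearMap.smul_apply, smul_eq_mul, hz, B_self, hw]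
          module
        rw [map_mul, map_mul, map_mul, LinearEquiv.mul_apply, LinearEquiv.mul_apply, LinearEquiv.mul_apply, tr_apply, hz,
          step _ _ (hvu _ _ hu3), step _ _ (hvu _ _ hu2), step _ _ (hvu _ _ hu1)]
        congr 2
        rw [map_add, map_add]
        ring
      obtain ⟨c, hc⟩ := mem_of_perp_perp (y := (x.1 • u1 + x.2.1 • u2 + x.2.2.1 • u3) - (y.1 • u1 + y.2.1 • u2 + y.2.2.1 • u3)) hv (by
        intro w hw
        have h8 := congrArg (fun g => spToLin g w) h6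
        simp only [h7 _ w hw, add_right_inj] at h8
        apply B_symm_zero
        rw [map_sub, sub_eq_zero]
        exact smul_left_injective F hv h8)
      obtain ⟨k1, k2, k3⟩ := hli (-c) (x.1 - y.1) (x.2.1 - y.2.1) (x.2.2.1 - y.2.2.1) (by
        have h8 : (x.1 • u1 + x.2.1 • u2 + x.2.2.1 • u3) - (y.1 • u1 + y.2.1 • u2 + y.2.2.1 • u3) - c • v = 0 := by
          rw [hc, sub_self]
        rw [← h8]; module)
      rw [sub_eq_zero] at k1 k2 k3
      rw [k1, k2, k3] at h6
      have k4 := spT_inj hv (mul_left_cancel h6)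
      exact Prod.ext k1 (Prod.ext k2 (Prod.ext k3 k4))
    have hle := Nat.card_le_card_of_injective _ hinj
    simp only [Nat.card_prod] at hle
    have hq : 1 < Nat.card F := Finite.one_lt_card
    have hpos : 0 < Nat.card F * (Nat.card F * Nat.card F) := by positivity
    nlinarith

end CfsgLib.AutPSp27
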