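import Cfsg.Agent.LibAutPSp27c

set_option autoImplicit false

/-! Automorphisms of `PSp_{2m}(F)` are semilinear. -/

namespace CfsgLib.AutPSp27

open Matrix Cfsg.Agent.H22 CfsgLib.SylCen27 CfsgLib.FTPG27

variable {m : ℕ} {F : Type*} [Field F]

local notation "V" => (Fin m ⊕ Fin m → F)
local notation "Sp" => (Matrix.symplecticGroup (Fin m) F)
local notation "B" => (spB m F)
local notation "π" => (QuotientGroup.mk' (Subgroup.center (Matrix.symplecticGroup (Fin m) F)))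

theorem scalar_eq {x : Sp} (hx : x ∈ Subgroup.center Sp) : ∃ a : F, ∀ v, spToLin x v = a • v := by
  obtain ⟨a, ha⟩ := center_sp_scalar hx
  refine ⟨a, fun v => ?_⟩
  rw [spToLin_apply, ha, Matrix.smul_mulVec, Matrix.one_mulVec]

theorem hK {p : ℕ} [Fact p.Prime] [CharP F p] (x : Sp) (k : ℕ) (hx : x ^ (p ^ k) = 1) (h : π x = 1) : x = 1 := by
  rw [QuotientGroup.mk'_apply, QuotientGroup.eq_one_iff] at h
  obtain ⟨a, ha⟩ := scalar_eq h
  have hpow : ∀ (j : ℕ) (v : V), spToLin (x ^ j) v = a ^ j • v := by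
    intro j v
    induction j with
    | zero => rw [pow_zero, map_one, pow_zero, one_smul]; rfl
    | succ j ih => rw [pow_succ, map_mul, LinearEquiv.mul_apply, ha, map_smul, ih, smul_smul, pow_succ, mul_comm]
  apply lin_ext
  intro v
  rw [ha, map_one]
  by_cases hv : v = 0
  · rw [hv, smul_zero, map_zero]
  have h1 := hpow (p ^ k) v
  rw [hx, map_one] at h1
  have h2 : a ^ (p ^ k) = 1 := by
    have h3 : (1 : F) • v = a ^ (p ^ k) • v := by rw [one_smul, ← h1]; rfl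
    exact (smul_left_injective F hv h3).symm
  have h3 : a = 1 := by
    have h2 : (a - 1) ^ (p ^ k) = 0 := by rw [sub_pow_char_pow, h2, one_pow, sub_self]
    exact sub_eq_zero.mp (pow_eq_zero_iff (pow_ne_zero _ (Fact.out : p.Prime).ne_zero) |>.1 h2)
  rw [h3, one_smul]; rfl

theorem mk_inj {p : ℕ} [Fact p.Prime] [CharP F p] {s t : Sp} {k : ℕ}
    (hs : s ^ (p ^ k) = 1) (ht : t ^ (p ^ k) = 1) (h : π s = π t) : s = t := by
  have h1 : s⁻¹ * t ∈ Subgroup.center Sp := QuotientGroup.eq.1 h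
  set z := s⁻¹ * t with hz
  have htz : t = s * z := by rw [hz, mul_inv_cancel_left]
  have hcomm : Commute s z := (Subgroup.mem_center_iff.1 h1 s)
  have hzp : z ^ (p ^ k) = 1 := by
    rw [htz, hcomm.mul_pow, hs, one_mul] at ht
    exact ht
  have hz1 := hK z k hzp ((QuotientGroup.eq_one_iff z).2 h1)
  rw [htz, hz1, mul_one]

theorem tr_pow {p : ℕ} [CharP F p] (v : V) (c : F) : (spT v c) ^ p = 1 := by
  have : ∀ j : ℕ, (spT v c) ^ j = spT v (j * c) := by
    intro j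
    induction j with
    | zero => rw [pow_zero, Nat.cast_zero, zero_mul, spT_zero]
    | succ j ih => rw [pow_succ, ih, spT_mul, Nat.cast_succ]; ring_nf
  rw [this, CharP.cast_eq_zero, zero_mul, spT_zero]

/-- transvection groups in `PSp` -/
def R (v : V) : Set (Cfsg.PSp m F) := π '' (spRoot v : Set Sp)

theorem conj_spRoot (g : Sp) (v : V) : (MulAut.conj g) '' (spRoot v : Set Sp) = (spRoot (spToLin g v) : Set Sp) := by
  ext z
  constructor
  · rintro ⟨_, ⟨c, rfl⟩, rfl⟩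
    exact ⟨c, by rw [MulAut.conj_apply, spT_conj, spToLin_apply]⟩
  · rintro ⟨c, rfl⟩
    exact ⟨_, ⟨c, rfl⟩, by rw [MulAut.conj_apply, spT_conj, spToLin_apply]⟩

theorem conj_R (g : Sp) (v : V) : (MulAut.conj (π g)) '' R v = R (spToLin g v) := by
  unfold R
  rw [← conj_spRoot, ← Set.image_comp, ← Set.image_comp]
  rfl

/-- **Automorphisms of `PSp` permute the transvection groups.** -/
theorem map_R [Finite F] {p : ℕ} [Fact p.Prime] [CharP F p] (hm : 2 ≤ m) (h4 : m = 2 → p ≠ 2) (α : Cfsg.PSp m F ≃* Cfsg.PSp m F)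
    {v : V} (hv : v ≠ 0) : ∃ v' : V, v' ≠ 0 ∧ α '' R v = R v' := by
  haveI : Finite Sp := Subtype.finite
  by_cases hp : p = 2
  · subst hp
    have hm3 : 3 ≤ m := by
      rcases Nat.lt_or_ge 2 m with h | h
      · exact h
      · exact absurd rfl (h4 (by omega))
    have hinj : Function.Injective π := by
      rw [injective_iff_map_eq_one]
      intro x hx
      have hx' := hx
      rw [QuotientGroup.mk'_apply, QuotientGroup.eq_one_iff] at hx'
      obtain ⟨a, ha⟩ := center_sp_scalar hx'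
      have h1 : a ^ 2 = 1 := by
        rw [← smul_one_mem_sp_iff (m := m) (by omega), ← ha]
        exact x.2
      refine hK (p := 2) x 1 ?_ hx
      apply Subtype.ext
      show (x : Matrix (Fin m ⊕ Fin m) (Fin m ⊕ Fin m) F) ^ (2 ^ 1) = 1
      rw [ha, pow_one, smul_pow, one_pow, h1, one_smul]
    let e : Sp ≃* Cfsg.PSp m F := MulEquiv.ofBijective π ⟨hinj, QuotientGroup.mk'_surjective _⟩
    have he : ∀ x, e x = π x := fun _ => rfl
    obtain ⟨v', hv', h⟩ := map_root_two hm3 ((e.trans α).trans e.symm) hv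
    refine ⟨v', hv', ?_⟩
    unfold R
    rw [← h]
    ext z
    constructor
    · rintro ⟨_, ⟨x, hx, rfl⟩, rfl⟩
      refine ⟨e.symm (α (e x)), ⟨x, hx, rfl⟩, ?_⟩
      rw [← he, e.apply_symm_apply]; rfl
    · rintro ⟨_, ⟨x, hx, rfl⟩, rfl⟩
      refine ⟨π x, ⟨x, hx, rfl⟩, ?_⟩
      show α (e x) = e (e.symm (α (e x)))
      rw [e.apply_symm_apply]
  · obtain ⟨Q0⟩ : Nonempty (Sylow p Sp) := inferInstance
    obtain ⟨v0, hv0, h0⟩ := cen_sylow_odd hp (by omega) Q0
    obtain ⟨g, hg⟩ := sp_transitive v0 v hv0 hv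
    have hg' : spToLin g v0 = v := hg
    obtain ⟨Q', hQ'⟩ := sylow_cen (p := p) π π (QuotientGroup.mk'_surjective _) (QuotientGroup.mk'_surjective _)
      hK hK ((MulAut.conj (π g)).trans α) Q0
    obtain ⟨v', hv', h'⟩ := cen_sylow_odd hp (by omega) Q'
    refine ⟨v', hv', ?_⟩
    rw [h0, h'] at hQ'
    rw [← hg', ← conj_R, ← Set.image_comp]
    exact hQ'

theorem PF_of_spT {v w : V} (hv : v ≠ 0) {a b : F} (ha : a ≠ 0) (h : (spT v a : Sp) = spT w b) : PF F v w := by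
  obtain ⟨x0, hx0⟩ := exists_dual hv
  have h1 := congrArg (fun g => spToLin g x0) h
  simp only [tr_apply, hx0, mul_one, add_right_inj] at h1
  have hc : b * B x0 w ≠ 0 := by
    intro h0
    rw [h0, zero_smul] at h1
    exact smul_ne_zero ha hv h1
  exact (PF.smul ha v).trans (h1 ▸ (PF.smul hc w).symm)

theorem R_inj {p : ℕ} [Fact p.Prime] [CharP F p] {v w : V} (hv : v ≠ 0) (h : R v = R w) : PF F v w := by
  have h1 : π (spT v 1) ∈ R w := by rw [← h]; exact ⟨_, ⟨1, rfl⟩, rfl⟩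
  obtain ⟨_, ⟨c, rfl⟩, hc⟩ := h1
  have h2 := mk_inj (p := p) (k := 1) (by rw [pow_one, tr_pow]) (by rw [pow_one, tr_pow]) hc
  exact PF_of_spT hv one_ne_zero h2.symm

theorem R_congr {v w : V} (h : PF F v w) : R v = R w := by
  obtain ⟨c, hc, rfl⟩ := h
  unfold R
  rw [spRoot_smul v hc]

theorem comm_iff {p : ℕ} [Fact p.Prime] [CharP F p] {v w : V} (hw : w ≠ 0) :
    (∀ x ∈ R v, ∀ y ∈ R w, x * y = y * x) ↔ B v w = 0 := by
  constructor
  · intro h
    by_contra hne
    have h1 := h (π (spT v 1)) ⟨_, ⟨1, rfl⟩, rfl⟩ (π (spT w 1)) ⟨_, ⟨1, rfl⟩, rfl⟩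
    have h2 : π (spT v 1 * spT w 1 * (spT v 1)⁻¹) = π (spT w 1) := by
      rw [map_mul, map_mul, h1, map_inv, mul_inv_cancel_right]
    have h3 := mk_inj (p := p) (k := 1) (by rw [pow_one, conj_pow, tr_pow, mul_one, mul_inv_cancel]) (by rw [pow_one, tr_pow]) h2
    rw [spT_conj, ← spToLin_apply, tr_apply, one_mul] at h3
    have h4 : w + B w v • v ≠ 0 := by
      intro h0
      rw [h0] at h3
      have h5 : (spT (0 : V) 1 : Sp) = 1 := by
        apply lin_ext; intro x; rw [tr_apply, map_one]; simp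
      rw [h5] at h3
      exact one_ne_zero ((spT_eq_one_iff hw).1 h3.symm)
    obtain ⟨c, hc, hc'⟩ := PF_of_spT h4 one_ne_zero h3
    have hwv : B w v ≠ 0 := fun h0 => hne (B_symm_zero h0)
    have h7 : B v w = c * B v w := by
      conv_lhs => rw [hc']
      simp only [map_add, map_smul, smul_eq_mul, B_self, mul_zero, add_zero]
    have hc1 : c = 1 := by
      apply mul_right_cancel₀ hne
      rw [one_mul, ← h7]
    rw [hc1, one_smul] at hc'
    have h8 : B w v • v = 0 := by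
      have h9 : w + B w v • v = w + 0 := by rw [← hc', add_zero]
      exact add_left_cancel h9
    rcases smul_eq_zero.mp h8 with h9 | h9
    · exact hwv h9
    · exact hne (by rw [h9, map_zero, LinearMap.zero_apply])
  · intro h
    rintro _ ⟨_, ⟨a, rfl⟩, rfl⟩ _ ⟨_, ⟨b, rfl⟩, rfl⟩
    rw [← map_mul, ← map_mul]
    congr 1
    apply lin_ext
    intro x
    rw [map_mul, map_mul, LinearEquiv.mul_apply, LinearEquiv.mul_apply, tr_apply, tr_apply, tr_apply, tr_apply]
    simp only [map_add, map_smul, LinearMap.add_apply, LinearMap.smul_apply, smul_eq_mul, h, B_symm_zero h]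
    module

/-- forms with the same orthogonality relation are proportional -/
theorem proportional (C : LinearMap.BilinForm F V) (hC : ∀ x y, B x y = 0 → C x y = 0) (hm : 1 ≤ m) :
    ∃ c : F, ∀ x y, C x y = c * B x y := by
  have h1 : ∀ v : V, v ≠ 0 → ∃ c : F, ∀ w, C w v = c * B w v := by
    intro v hv
    obtain ⟨x0, hx0⟩ := exists_dual hv
    refine ⟨C x0 v, fun w => ?_⟩
    have h := hC (w - B w v • x0) v (by
      rw [map_sub, map_smul, LinearMap.sub_apply, LinearMap.smul_apply, hx0, smul_eq_mul, mul_one, sub_self])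
    rw [map_sub, map_smul, LinearMap.sub_apply, LinearMap.smul_apply, smul_eq_mul, sub_eq_zero] at h
    rw [h, mul_comm]
  have h2 : ∀ v w : V, v ≠ 0 → w ≠ 0 → ∀ c d : F, (∀ x, C x v = c * B x v) → (∀ x, C x w = d * B x w) → c = d := by
    intro v w hv hw c d hc hd
    by_cases hvw : ∃ k : F, w = k • v
    · obtain ⟨k, rfl⟩ := hvw
      obtain ⟨x0, hx0⟩ := exists_dual hw
      have e1 := hd x0
      rw [hx0, map_smul, smul_eq_mul, hc, mul_one] at e1
      rw [map_smul, smul_eq_mul] at hx0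
      rw [← e1]
      linear_combination (-c) * hx0
    · obtain ⟨⟨x1, h11, h12⟩, x2, h21, h22⟩ := dual_pair hv hvw
      have hne : v + w ≠ 0 := by
        intro h
        exact hvw ⟨-1, by rw [neg_one_smul]; exact (neg_eq_of_add_eq_zero_right h).symm⟩
      obtain ⟨e, he⟩ := h1 (v + w) hne
      have e1 := he x1
      have e2 := he x2
      simp only [map_add, h11, h12, h21, h22, hc, hd] at e1 e2
      linear_combination e2 - e1
  obtain ⟨v0, hv0⟩ : ∃ v0 : V, v0 ≠ 0 := by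
    refine ⟨Pi.single (Sum.inl ⟨0, hm⟩) 1, fun h => ?_⟩
    have h2 := congrFun h (Sum.inl ⟨0, hm⟩)
    simp at h2
  obtain ⟨c, hc⟩ := h1 v0 hv0
  refine ⟨c, fun x y => ?_⟩
  by_cases hy : y = 0
  · rw [hy, map_zero, map_zero, mul_zero]
  obtain ⟨d, hd⟩ := h1 y hy
  rw [h2 v0 y hv0 hy c d hc hd, hd]

theorem B_sigma (σ : F ≃+* F) (x y : V) : B (σ ∘ x) (σ ∘ y) = σ (B x y) := by
  rw [spB_apply, spB_apply, sympForm_eq_sum, sympForm_eq_sum, map_sum]
  refine Finset.sum_congr rfl fun i _ => ?_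
  simp

/-- **Automorphisms of `PSp` come from semilinear maps.** -/
theorem main [Finite F] {p : ℕ} [Fact p.Prime] [CharP F p] (hm : 2 ≤ m) (h4 : m = 2 → p ≠ 2) (α : Cfsg.PSp m F ≃* Cfsg.PSp m F) :
    ∃ (g : GL (Fin m ⊕ Fin m) F) (σ : F ≃+* F), g ∈ Cfsg.GSp m F ∧ Cfsg.IsInducedBySemilinearPSp g σ α := by
  classical
  choose! f hf using fun (v : V) (hv : v ≠ 0) => map_R hm h4 α hv
  have hf0 : ∀ v, v ≠ 0 → f v ≠ 0 := fun v hv => (hf v hv).1
  have hfR : ∀ v, v ≠ 0 → α '' R v = R (f v) := fun v hv => (hf v hv).2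
  have hfB : ∀ v w, v ≠ 0 → w ≠ 0 → (B (f v) (f w) = 0 ↔ B v w = 0) := by
    intro v w hv hw
    rw [← comm_iff (p := p) hw, ← comm_iff (p := p) (hf0 w hw), ← hfR v hv, ← hfR w hw]
    constructor
    · intro h x hx y hy
      apply α.injective
      rw [map_mul, map_mul]
      exact h _ ⟨x, hx, rfl⟩ _ ⟨y, hy, rfl⟩
    · rintro h _ ⟨x, hx, rfl⟩ _ ⟨y, hy, rfl⟩
      rw [← map_mul, ← map_mul, h x hx y hy]
  have hf1 : ∀ v w, v ≠ 0 → w ≠ 0 → PF F v w → PF F (f v) (f w) := by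
    intro v w hv hw h
    apply R_inj (p := p) (hf0 v hv)
    rw [← hfR v hv, ← hfR w hw, R_congr h]
  have hf2 : ∀ v w, v ≠ 0 → w ≠ 0 → PF F (f v) (f w) → PF F v w := by
    intro v w hv hw h
    apply R_inj (p := p) hv
    apply Set.image_injective.2 α.injective
    rw [hfR v hv, hfR w hw, R_congr h]
  have hsurj : ∀ x : V, x ≠ 0 → ∃ y, y ≠ 0 ∧ PF F (f y) x := by
    intro x hx
    obtain ⟨y, hy, h⟩ := map_R hm h4 α.symm hx
    refine ⟨y, hy, ?_⟩
    apply R_inj (p := p) (hf0 y hy)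
    rw [← hfR y hy, ← h, ← Set.image_comp]
    have : (α ∘ α.symm) = id := by ext z; simp
    rw [this, Set.image_id]
  have hB1 : ∀ {x y z : V}, PF F x y → (B x z = 0 ↔ B y z = 0) := by
    rintro x _ z ⟨c, hc, rfl⟩
    rw [map_smul, LinearMap.smul_apply, smul_eq_mul, mul_eq_zero, or_iff_right hc]
  have hf3 : ∀ u v w, u ≠ 0 → v ≠ 0 → w ≠ 0 → (∃ a b : F, w = a • u + b • v) → ∃ a b : F, f w = a • f u + b • f v := by
    rintro u v w hu hv hw ⟨a, b, hab⟩
    apply perp2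
    intro x h1 h2
    by_cases hx : x = 0
    · rw [hx, map_zero, LinearMap.zero_apply]
    obtain ⟨y, hy, hyx⟩ := hsurj x hx
    rw [← hB1 hyx] at h1 h2 ⊢
    rw [hfB y u hy hu] at h1
    rw [hfB y v hy hv] at h2
    rw [hfB y w hy hw, hab, map_add, map_smul, map_smul, h1, h2, smul_zero, smul_zero, add_zero]
  have hf4 : ∀ u v w, u ≠ 0 → v ≠ 0 → w ≠ 0 → (∃ a b : F, f w = a • f u + b • f v) → ∃ a b : F, w = a • u + b • v := by
    rintro u v w hu hv hw ⟨a, b, hab⟩
    apply perp2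
    intro x h1 h2
    by_cases hx : x = 0
    · rw [hx, map_zero, LinearMap.zero_apply]
    rw [← hfB x w hx hw, hab, map_add, map_smul, map_smul, (hfB x u hx hu).2 h1, (hfB x v hx hv).2 h2, smul_zero, smul_zero,
      add_zero]
  have hi1 : (Sum.inl ⟨0, by omega⟩ : Fin m ⊕ Fin m) ≠ Sum.inl ⟨1, by omega⟩ := by
    intro h
    have := Sum.inl_injective h
    simp at this
  have hi2 : (Sum.inl ⟨0, by omega⟩ : Fin m ⊕ Fin m) ≠ Sum.inr ⟨0, by omega⟩ := by simp
  have hi3 : (Sum.inl ⟨1, by omega⟩ : Fin m ⊕ Fin m) ≠ Sum.inr ⟨0, by omega⟩ := by simp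
  obtain ⟨σ, g, hg⟩ := ftpg hi1 hi2 hi3 f hf0 hf1 hf2 hf3 hf4
  have hσ0 : ∀ v : V, v ≠ 0 → (σ.symm ∘ v : V) ≠ 0 := by
    intro v hv h
    apply hv
    ext i
    have := congrFun h i
    simp only [Function.comp_apply, Pi.zero_apply] at this
    rw [← σ.apply_symm_apply (v i), this, map_zero]; rfl
  have hσσ : ∀ v : V, (σ ∘ (σ.symm ∘ v) : V) = v := by
    intro v; ext i; simp
  let C : LinearMap.BilinForm F V := (B).compl₁₂ (Matrix.toLin' (g : Matrix (Fin m ⊕ Fin m) (Fin m ⊕ Fin m) F))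
    (Matrix.toLin' (g : Matrix (Fin m ⊕ Fin m) (Fin m ⊕ Fin m) F))
  have hC : ∀ x y, C x y = B ((g : Matrix (Fin m ⊕ Fin m) (Fin m ⊕ Fin m) F) *ᵥ x) ((g : Matrix (Fin m ⊕ Fin m) (Fin m ⊕ Fin m) F) *ᵥ y) :=
    fun _ _ => rfl
  have hB2 : ∀ {x y z : V}, PF F x y → (B z x = 0 ↔ B z y = 0) := by
    rintro x _ z ⟨c, hc, rfl⟩
    rw [map_smul, smul_eq_mul, mul_eq_zero, or_iff_right hc]
  have hCB : ∀ x y, B x y = 0 ↔ C x y = 0 := by
    intro x y
    by_cases hx : x = 0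
    · subst hx; simp
    by_cases hy : y = 0
    · subst hy; simp
    have h1 := hg _ (hσ0 x hx)
    have h2 := hg _ (hσ0 y hy)
    rw [hσσ] at h1 h2
    rw [hC, ← hB1 h1, ← hB2 h2, hfB _ _ (hσ0 x hx) (hσ0 y hy), B_sigma]
    exact (map_eq_zero_iff _ σ.symm.injective).symm
  obtain ⟨c, hc⟩ := proportional C (fun x y h => (hCB x y).1 h) (by omega)
  have hc0 : c ≠ 0 := by
    rintro rfl
    have hv0 : (Pi.single (Sum.inl ⟨0, by omega⟩) 1 : V) ≠ 0 := by
      intro h
      have h2 := congrFun h (Sum.inl ⟨0, by omega⟩)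
      simp at h2
    obtain ⟨x0, hx0⟩ := exists_dual hv0
    have := (hCB x0 (Pi.single (Sum.inl ⟨0, by omega⟩) 1)).2 (by rw [hc, zero_mul])
    rw [hx0] at this
    exact one_ne_zero this
  refine ⟨g, σ, ⟨Units.mk0 c hc0, fun u v => ?_⟩, ?_⟩
  · rw [← spB_apply, ← spB_apply, ← hC, hc, Units.val_mk0]
  -- the automorphism is induced by `(g, σ)`
  intro s s' hs
  -- lift `α (mk s)`
  obtain ⟨t, ht⟩ := QuotientGroup.mk'_surjective (Subgroup.center Sp) (α (π s))
  have hs' : ∀ v : V, spToLin s' ((g : Matrix (Fin m ⊕ Fin m) (Fin m ⊕ Fin m) F) *ᵥ (σ ∘ v)) =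
      (g : Matrix (Fin m ⊕ Fin m) (Fin m ⊕ Fin m) F) *ᵥ (σ ∘ (spToLin s v)) := by
    intro v
    rw [spToLin_apply, hs, mulVec_mulVec, mul_assoc, mul_assoc, Units.inv_mul, mul_one, ← mulVec_mulVec]
    congr 1
    ext i
    simp only [spToLin_apply, mulVec, dotProduct, Function.comp_apply, Matrix.map_apply, map_sum, map_mul]
  have hts : ∀ v : V, v ≠ 0 → PF F (spToLin t (f v)) (f (spToLin s v)) := by
    intro v hv
    have hsv : spToLin s v ≠ 0 := fun h => hv ((LinearEquiv.map_eq_zero_iff _).1 h)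
    have htv : spToLin t (f v) ≠ 0 := fun h => hf0 v hv ((LinearEquiv.map_eq_zero_iff _).1 h)
    apply R_inj (p := p) htv
    rw [← conj_R, ← hfR _ hsv, ← hfR _ hv, ← conj_R, ht, ← Set.image_comp, ← Set.image_comp]
    congr 1
    ext z
    simp only [Function.comp_apply, MulAut.conj_apply, map_mul, map_inv]
  have htlin : ∀ w : V, ∃ c : F, spToLin t w = c • spToLin s' w := by
    intro w
    by_cases hw : w = 0
    · exact ⟨0, by rw [hw, map_zero, zero_smul]⟩
    -- `w = g σ(v)`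
    set v : V := σ.symm ∘ (((g⁻¹ : GL (Fin m ⊕ Fin m) F) : Matrix (Fin m ⊕ Fin m) (Fin m ⊕ Fin m) F) *ᵥ w) with hv
    have hwv : (g : Matrix (Fin m ⊕ Fin m) (Fin m ⊕ Fin m) F) *ᵥ (σ ∘ v) = w := by
      rw [hv, hσσ, mulVec_mulVec, Units.mul_inv, one_mulVec]
    have hv0 : v ≠ 0 := by
      intro h
      rw [h] at hwv
      apply hw
      rw [← hwv]
      have : (σ ∘ (0 : V) : V) = 0 := by ext i; simp
      rw [this, mulVec_zero]
    have hsv : spToLin s v ≠ 0 := fun h => hv0 ((LinearEquiv.map_eq_zero_iff _).1 h)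
    obtain ⟨a, ha, h1⟩ := (hg v hv0)
    rw [hwv] at h1
    obtain ⟨b, hb, h2⟩ := (hts v hv0).symm
    obtain ⟨d, hd, h3⟩ := hg _ hsv
    rw [← hs', hwv] at h3
    have h4 : f (spToLin s v) = d⁻¹ • spToLin s' w := by rw [h3, smul_smul, inv_mul_cancel₀ hd, one_smul]
    refine ⟨a * b * d⁻¹, ?_⟩
    calc spToLin t w = spToLin t (a • f v) := by rw [← h1]
      _ = a • b • d⁻¹ • spToLin s' w := by rw [map_smul, h2, h4]
      _ = _ := by module
  -- `t = k s'`
  have hz : (s'⁻¹ * t) ∈ Subgroup.center Sp := by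
    obtain ⟨a, ha⟩ := (spToLin (s'⁻¹ * t) : V →ₗ[F] V).exists_eq_smul_id_of_forall_notLinearIndependent (fun v => by
      by_cases hv : v = 0
      · subst hv
        intro h
        exact (h.ne_zero 0) rfl
      · rw [LinearIndependent.pair_iff' hv]
        push Not
        obtain ⟨c, hc⟩ := htlin v
        refine ⟨c, ?_⟩
        show _ = spToLin (s'⁻¹ * t) v
        rw [map_mul, LinearEquiv.mul_apply, hc, map_smul, inv_mul_app])
    rw [Subgroup.mem_center_iff]
    intro x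
    have ha' : ∀ v, spToLin (s'⁻¹ * t) v = a • v := fun v => LinearMap.congr_fun ha v
    apply lin_ext
    intro v
    rw [map_mul spToLin x, map_mul spToLin (s'⁻¹ * t), LinearEquiv.mul_apply, LinearEquiv.mul_apply, ha', ha', map_smul]
  have h5 : π s' = π t := QuotientGroup.eq.2 hz
  show α (π s) = π s'
  rw [h5, ht]

end CfsgLib.AutPSp27
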