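import Cfsg.Agent.LibH9027
import Cfsg.Agent.LibSplit27
import Cfsg.Prelude.Def_LieTypeDatum

set_option autoImplicit false

/-! Field automorphisms acting on projective similarity groups: abstract part. -/

namespace CfsgLib.Semi27

open Matrix CfsgLib.H9027

variable {F : Type*} [Field F] {ι : Type} [Fintype ι] [DecidableEq ι]

/-- entrywise field automorphism on `GL` -/
noncomputable abbrev gm (σ : F ≃+* F) : GL ι F →* GL ι F := Matrix.GeneralLinearGroup.map (σ : F →+* F)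

/-- scalar matrices -/
noncomputable abbrev scal (u : Fˣ) : GL ι F := Matrix.GeneralLinearGroup.scalar ι u

theorem scal_one : (scal 1 : GL ι F) = 1 := map_one _

theorem scal_mul (u v : Fˣ) : (scal (u * v) : GL ι F) = scal u * scal v := map_mul _ u v

theorem coe_gm (σ : F ≃+* F) (g : GL ι F) : ((gm σ g : GL ι F) : Matrix ι ι F) = (g : Matrix ι ι F).map σ := rfl

theorem gm_mulVec (σ : F ≃+* F) (M : Matrix ι ι F) (v : ι → F) : (M.map σ) *ᵥ (σ ∘ v) = σ ∘ (M *ᵥ v) := by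
  ext i
  simp [Matrix.mulVec, dotProduct, map_sum]

theorem scal_mulVec (u : Fˣ) (v : ι → F) : ((scal u : GL ι F) : Matrix ι ι F) *ᵥ v = (u : F) • v := by
  show (Matrix.scalar ι (u : F)) *ᵥ v = _
  rw [scalar_apply]
  ext i
  rw [mulVec_diagonal]; rfl

theorem scal_mul_apply (u : Fˣ) (g : GL ι F) (i j : ι) :
    ((scal u * g : GL ι F) : Matrix ι ι F) i j = (u : F) * (g : Matrix ι ι F) i j := by
  show ((Matrix.scalar ι (u : F)) * (g : Matrix ι ι F)) i j = _
  rw [scalar_apply, diagonal_mul]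

theorem scal_mul_mulVec (u : Fˣ) (g : GL ι F) (v : ι → F) :
    ((scal u * g : GL ι F) : Matrix ι ι F) *ᵥ v = (u : F) • ((g : Matrix ι ι F) *ᵥ v) := by
  rw [Units.val_mul, ← mulVec_mulVec, scal_mulVec]

theorem scal_comm (u : Fˣ) (g : GL ι F) : scal u * g = g * scal u := Matrix.GeneralLinearGroup.scalar_commute u g

theorem gm_scal (σ : F ≃+* F) (u : Fˣ) : gm σ (scal u : GL ι F) = scal (Units.map ((σ : F →+* F) : F →* F) u) :=
  Matrix.GeneralLinearGroup.map_scalar _ _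

theorem gm_gm_inv (σ : F ≃+* F) (g : GL ι F) : gm σ (gm σ⁻¹ g) = g := by
  apply Units.ext
  ext i j
  exact σ.apply_symm_apply _

theorem gm_mul_aut (σ τ : F ≃+* F) (g : GL ι F) : gm σ (gm τ g) = gm (σ * τ) g := rfl

theorem exists_entry_ne [Nonempty ι] (g : GL ι F) : ∃ i j, (g : Matrix ι ι F) i j ≠ 0 := by
  by_contra hcon
  push Not at hcon
  have h0 : (g : Matrix ι ι F) = 0 := by ext i j; exact hcon i j
  have h1 := g.mul_inv
  rw [h0, Matrix.zero_mul] at h1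
  obtain ⟨i⟩ := (inferInstance : Nonempty ι)
  have h2 := congrFun (congrFun h1 i) i
  simp at h2

theorem scal_inj [Nonempty ι] {u v : Fˣ} (g : GL ι F) (h : scal u * g = scal v * g) : u = v := by
  obtain ⟨i, j, hij⟩ := exists_entry_ne g
  apply Units.ext
  have := congrArg (fun x : GL ι F => (x : Matrix ι ι F) i j) h
  simp only [scal_mul_apply] at this
  exact mul_right_cancel₀ hij this

theorem comp_single (σ : F ≃+* F) (i : ι) : (σ ∘ (Pi.single i 1 : ι → F)) = Pi.single i 1 := by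
  ext j
  by_cases hj : j = i
  · subst hj; simp
  · simp [hj]

theorem eq_of_mulVec_single {A B : Matrix ι ι F} (h : ∀ i, A *ᵥ Pi.single i 1 = B *ᵥ Pi.single i 1) : A = B := by
  ext a b
  have := congrFun (h b) a
  rw [mulVec_single_one, mulVec_single_one] at this
  exact this

/-- the norm of a matrix -/
noncomputable def nrm (σ : F ≃+* F) (g : GL ι F) : ℕ → GL ι F
  | 0 => 1
  | (k + 1) => g * gm σ (nrm σ g k)

theorem nrm_mem {σ : F ≃+* F} {Γ : Subgroup (GL ι F)} (hσΓ : ∀ g ∈ Γ, gm σ g ∈ Γ) {g : GL ι F} (hg : g ∈ Γ) (k : ℕ) :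
    nrm σ g k ∈ Γ := by
  induction k with
  | zero => exact Γ.one_mem
  | succ k ih => exact Γ.mul_mem hg (hσΓ _ ih)

theorem iter_nrm (σ : F ≃+* F) (g : GL ι F) (k : ℕ) (v : ι → F) :
    (fun v : ι → F => (g : Matrix ι ι F) *ᵥ (σ ∘ v))^[k] v = (nrm σ g k : Matrix ι ι F) *ᵥ ((σ ^ k : F ≃+* F) ∘ v) := by
  induction k with
  | zero => ext i; simp [nrm]
  | succ k ih =>
    rw [Function.iterate_succ_apply', ih, nrm, Units.val_mul, coe_gm, ← mulVec_mulVec]
    congr 1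
    rw [← gm_mulVec]
    congr 1
    ext i
    simp only [Function.comp_apply]
    rw [pow_succ']; rfl

/-- Lang's theorem for `PGL`, matrix form. -/
theorem lang_matrix [Finite F] [Nonempty ι] {σ : F ≃+* F} {r : ℕ} (hr : 0 < r) (ho : orderOf σ = r) {g : GL ι F} {u : Fˣ}
    (hg : nrm σ g r = scal u) : ∃ (l : Fˣ) (k : GL ι F), g * gm σ k = scal l * k := by
  have hσr : σ ^ r = 1 := by rw [← ho, pow_orderOf_eq_one]
  obtain ⟨l, k, hl, -, hk⟩ := lang_semilinear σ r hr ho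
    (fun v : ι → F => (g : Matrix ι ι F) *ᵥ (σ ∘ v)) (by
      intro u v
      rw [← mulVec_add]
      congr 1
      ext i; simp) (by
      intro a v
      rw [← mulVec_smul]
      congr 1
      ext i; simp) (u : F) u.ne_zero (by
      intro v
      rw [iter_nrm, hg, hσr, scal_mulVec]; rfl)
  refine ⟨Units.mk0 l hl, k, ?_⟩
  apply Units.ext
  rw [Units.val_mul]
  apply eq_of_mulVec_single
  intro i
  rw [← mulVec_mulVec, scal_mul_mulVec]
  have h2 : (g : Matrix ι ι F) *ᵥ (σ ∘ ((k : Matrix ι ι F) *ᵥ Pi.single i 1)) =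
    l • ((k : Matrix ι ι F) *ᵥ Pi.single i 1) := hk i
  rw [← gm_mulVec, comp_single] at h2
  rw [coe_gm, h2, Units.val_mk0]

/-- Hilbert 90 for units: norm one elements -/
theorem h90_unit [Finite F] {σ : F ≃+* F} {r : ℕ} (hr : 0 < r) (ho : orderOf σ = r) (c : Fˣ)
    (hc : ∏ i ∈ Finset.range r, (σ ^ i) (c : F) = 1) : ∃ y : Fˣ, (c : F) * σ y = y := by
  have hσr : σ ^ r = 1 := by rw [← ho, pow_orderOf_eq_one]
  obtain ⟨y, hy, h⟩ := exists_unit_eq σ r hr (pow_inj_of_order ho) hσr (c : F) hc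
  exact ⟨Units.mk0 y hy, h⟩

/-- a matrix proportional to its image under `σ` is a multiple of a fixed one -/
theorem fixed_multiple [Nonempty ι] {σ : F ≃+* F} {g : GL ι F} {u : Fˣ} (hu : gm σ g = scal u * g) :
    ∃ (y : Fˣ) (h : GL ι F), gm σ h = h ∧ g = scal y * h := by
  obtain ⟨i, j, hij⟩ := exists_entry_ne g
  set a := (g : Matrix ι ι F) i j with ha
  have hent : ∀ k l, σ ((g : Matrix ι ι F) k l) = u * (g : Matrix ι ι F) k l := by
    intro k l
    rw [← scal_mul_apply, ← hu]; rfl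
  have hσa : σ a = u * a := hent i j
  refine ⟨Units.mk0 a hij, scal (Units.mk0 a hij)⁻¹ * g, ?_, ?_⟩
  · apply Units.ext
    ext k l
    show σ ((scal (Units.mk0 a hij)⁻¹ * g : GL ι F) k l) = _
    rw [scal_mul_apply, map_mul, hent, Units.val_inv_eq_inv_val, Units.val_mk0, map_inv₀, hσa]
    have hu0 : (u : F) ≠ 0 := u.ne_zero
    field_simp
  · rw [← mul_assoc, ← map_mul, mul_inv_cancel, map_one, one_mul]

theorem fixed_multiple_conv {σ : F ≃+* F} {y : Fˣ} {h : GL ι F} (hh : gm σ h = h) :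
    ∃ u : Fˣ, gm σ (scal y * h) = scal u * (scal y * h) := by
  refine ⟨Units.map ((σ : F →+* F) : F →* F) y * y⁻¹, ?_⟩
  rw [map_mul, hh, gm_scal, ← mul_assoc, ← map_mul, inv_mul_cancel_right]

/-- a semilinear map acting by scalars on all vectors is scalar -/
theorem semi_scalar [Nontrivial ι] {g : GL ι F} {σ : F ≃+* F}
    (h : ∀ v : ι → F, v ≠ 0 → ∃ c : F, (g : Matrix ι ι F) *ᵥ (σ ∘ v) = c • v) : σ = 1 ∧ ∃ u : Fˣ, g = scal u := by
  have hne : ∀ i : ι, (Pi.single i 1 : ι → F) ≠ 0 := by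
    intro i h
    have := congrFun h i
    simp at this
  choose c hc using fun i => h (Pi.single i 1) (hne i)
  simp only [comp_single] at hc
  have hc0 : ∀ i, c i ≠ 0 := by
    intro i h0
    have h1 := hc i
    rw [h0, zero_smul] at h1
    have h2 := congrArg (fun v => ((g⁻¹ : GL ι F) : Matrix ι ι F) *ᵥ v) h1
    simp only [mulVec_mulVec, Units.inv_mul, one_mulVec, mulVec_zero] at h2
    exact hne i h2
  have key : ∀ i j, i ≠ j → ∀ a : F, σ a * c j = c i * a := by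
    intro i j hij a
    have hne2 : (Pi.single i 1 + a • Pi.single j 1 : ι → F) ≠ 0 := by
      intro h
      have := congrFun h i
      simp [hij.symm, hij] at this
    obtain ⟨d, hd⟩ := h _ hne2
    have e1 : (σ ∘ (Pi.single i 1 + a • Pi.single j 1 : ι → F)) = Pi.single i 1 + σ a • Pi.single j 1 := by
      ext k
      simp only [Function.comp_apply, Pi.add_apply, Pi.smul_apply, smul_eq_mul, map_add, map_mul]
      congr 1
      · have := congrFun (comp_single σ i) k; exact this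
      · congr 1
        have := congrFun (comp_single σ j) k; exact this
    rw [e1, mulVec_add, mulVec_smul, hc, hc] at hd
    have h1 := congrFun hd i
    have h2 := congrFun hd j
    simp [hij, hij.symm] at h1 h2
    rw [h1, ← h2]
  obtain ⟨i0, j0, hij⟩ := exists_pair_ne ι
  have hcc : ∀ i j, c i = c j := by
    intro i j
    by_cases h : i = j
    · rw [h]
    have := key i j h 1
    rw [map_one, one_mul, mul_one] at this
    exact this.symm
  constructor
  · ext a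
    have h1 := key i0 j0 hij a
    rw [hcc j0 i0, mul_comm] at h1
    exact mul_left_cancel₀ (hc0 i0) h1
  · refine ⟨Units.mk0 (c i0) (hc0 i0), ?_⟩
    apply Units.ext
    apply eq_of_mulVec_single
    intro i
    rw [hc, scal_mulVec, Units.val_mk0, hcc i i0]

/-- bilinear forms with fixed coefficients descend -/
theorem descend {σ : F ≃+* F} (C : LinearMap.BilinForm F (ι → F))
    (hC : ∀ i j, σ (C (Pi.single i 1) (Pi.single j 1)) = C (Pi.single i 1) (Pi.single j 1)) :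
    ∃ C0 : LinearMap.BilinForm (fixF σ) (ι → fixF σ), ∀ x y, (C0 x y : F) = C (fun i => (x i : F)) (fun i => (y i : F)) := by
  refine ⟨Matrix.toBilin' (Matrix.of fun i j => ⟨C (Pi.single i 1) (Pi.single j 1), hC i j⟩), fun x y => ?_⟩
  have h1 : ∀ u v : ι → F, C u v = ∑ i, ∑ j, u i * C (Pi.single i 1) (Pi.single j 1) * v j := by
    intro u v
    conv_lhs => rw [← Matrix.toBilin'_toMatrix' C, Matrix.toBilin'_apply]
    rfl
  rw [h1, Matrix.toBilin'_apply]
  push_cast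
  rfl

theorem exists_GL_of_basis {K : Type*} [Field K] (b : Module.Basis ι K (ι → K)) :
    ∃ g : GL ι K, ∀ i, (g : Matrix ι ι K) *ᵥ Pi.single i 1 = b i := by
  let e : (ι → K) ≃ₗ[K] (ι → K) := (Pi.basisFun K ι).equiv b (Equiv.refl ι)
  refine ⟨⟨LinearMap.toMatrix' (e : (ι → K) →ₗ[K] (ι → K)), LinearMap.toMatrix' (e.symm : (ι → K) →ₗ[K] (ι → K)), ?_, ?_⟩, ?_⟩
  · rw [← LinearMap.toMatrix'_comp, LinearEquiv.comp_symm, LinearMap.toMatrix'_id]
  · rw [← LinearMap.toMatrix'_comp, LinearEquiv.symm_comp, LinearMap.toMatrix'_id]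
  · intro i
    show LinearMap.toMatrix' (e : (ι → K) →ₗ[K] (ι → K)) *ᵥ _ = _
    rw [LinearMap.toMatrix'_mulVec]
    have h := Module.Basis.equiv_apply (Pi.basisFun K ι) i b (Equiv.refl ι)
    rw [Pi.basisFun_apply] at h
    exact h

section Abstract

variable {A : Type*} [Group A] {Γ : Subgroup (GL ι F)} {ρ : Γ →* A} {φ : A} {σ : F ≃+* F}

theorem rho_eq_iff (hker : ∀ g : Γ, ρ g = 1 ↔ ∃ u : Fˣ, (g : GL ι F) = scal u) (g h : Γ) :
    ρ g = ρ h ↔ ∃ u : Fˣ, (g : GL ι F) = scal u * (h : GL ι F) := by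
  rw [← mul_inv_eq_one, ← map_inv, ← map_mul, hker]
  refine exists_congr fun u => ?_
  rw [Subgroup.coe_mul, Subgroup.coe_inv, mul_inv_eq_iff_eq_mul]

theorem semi_pow (hσΓ : ∀ g ∈ Γ, gm σ g ∈ Γ) (hφ : ∀ g : Γ, φ * ρ g = ρ ⟨gm σ g, hσΓ g g.2⟩ * φ) (g : Γ) (k : ℕ) :
    (ρ g * φ) ^ k = ρ ⟨nrm σ (g : GL ι F) k, nrm_mem hσΓ g.2 k⟩ * φ ^ k := by
  induction k with
  | zero =>
    rw [pow_zero, pow_zero, mul_one]
    exact (map_one ρ).symm
  | succ k ih =>
    rw [pow_succ', ih, pow_succ']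
    calc ρ g * φ * (ρ ⟨nrm σ (g : GL ι F) k, nrm_mem hσΓ g.2 k⟩ * φ ^ k) =
        ρ g * (φ * ρ ⟨nrm σ (g : GL ι F) k, nrm_mem hσΓ g.2 k⟩) * φ ^ k := by simp only [mul_assoc]
      _ = ρ g * ρ ⟨gm σ (nrm σ (g : GL ι F) k), hσΓ _ (nrm_mem hσΓ g.2 k)⟩ * (φ * φ ^ k) := by rw [hφ]; simp only [mul_assoc]
      _ = _ := by rw [← map_mul]; rfl

theorem comm_iff (hσΓ : ∀ g ∈ Γ, gm σ g ∈ Γ) (hφ : ∀ g : Γ, φ * ρ g = ρ ⟨gm σ g, hσΓ g g.2⟩ * φ) [Nonempty ι]
    (hker : ∀ g : Γ, ρ g = 1 ↔ ∃ u : Fˣ, (g : GL ι F) = scal u) (c : Γ) :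
    ρ c * φ = φ * ρ c ↔ ∃ (u : Fˣ) (g : GL ι F), gm σ g = g ∧ (c : GL ι F) = scal u * g := by
  rw [hφ, mul_left_inj, eq_comm, rho_eq_iff hker]
  constructor
  · rintro ⟨u, hu⟩
    obtain ⟨y, h, h1, h2⟩ := fixed_multiple hu
    exact ⟨y, h, h1, h2⟩
  · rintro ⟨u, g, hg, hc⟩
    show ∃ v : Fˣ, gm σ (c : GL ι F) = scal v * (c : GL ι F)
    rw [hc]
    exact fixed_multiple_conv hg

theorem centralizer_equiv (hσΓ : ∀ g ∈ Γ, gm σ g ∈ Γ) (hφ : ∀ g : Γ, φ * ρ g = ρ ⟨gm σ g, hσΓ g g.2⟩ * φ) [Nonempty ι]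
    (hker : ∀ g : Γ, ρ g = 1 ↔ ∃ u : Fˣ, (g : GL ι F) = scal u) (hscal : ∀ u : Fˣ, scal u ∈ Γ)
    {F₀ : Type*} [Field F₀] (e : F₀ ≃+* fixF σ) {Γ₀ : Subgroup (GL ι F₀)}
    (hΓ₀ : ∀ g : GL ι F₀, Matrix.GeneralLinearGroup.map ((fixF σ).subtype.comp (e : F₀ →+* fixF σ)) g ∈ Γ ↔ g ∈ Γ₀) :
    Nonempty (↥(ρ.range ⊓ Subgroup.centralizer {φ}) ≃* Cfsg.projQuot Γ₀) := by
  let j : F₀ →+* F := (fixF σ).subtype.comp (e : F₀ →+* fixF σ)
  have hj : Function.Injective j := j.injective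
  have hjσ : ∀ a, σ (j a) = j a := fun a => (e a).2
  let J : GL ι F₀ →* GL ι F := Matrix.GeneralLinearGroup.map j
  have hJσ : ∀ g, gm σ (J g) = J g := by
    intro g
    apply Units.ext
    ext a b
    exact hjσ _
  have hJr : ∀ g : GL ι F, gm σ g = g → ∃ g₀, J g₀ = g := by
    intro g hg
    have hent : ∀ a b, σ ((g : Matrix ι ι F) a b) = (g : Matrix ι ι F) a b := by
      intro a b
      exact congrArg (fun x : GL ι F => (x : Matrix ι ι F) a b) hg
    let M : Matrix ι ι F₀ := fun a b => e.symm ⟨(g : Matrix ι ι F) a b, hent a b⟩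
    have hM : M.map j = (g : Matrix ι ι F) := by
      ext a b
      show j (e.symm _) = _
      show ((e (e.symm ⟨(g : Matrix ι ι F) a b, hent a b⟩) : fixF σ) : F) = _
      rw [RingEquiv.apply_symm_apply]
    have hdet : M.det ≠ 0 := by
      intro h
      have h1 : ((g : Matrix ι ι F)).det = 0 := by
        rw [← hM]
        have := j.map_det M
        rw [h, map_zero] at this
        exact this.symm
      exact (Matrix.GeneralLinearGroup.det g).ne_zero h1
    refine ⟨Matrix.GeneralLinearGroup.mkOfDetNeZero M hdet, ?_⟩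
    apply Units.ext
    exact hM
  let J' : Γ₀ →* Γ := (J.comp Γ₀.subtype).codRestrict Γ (fun g => (hΓ₀ g).2 g.2)
  let ψ : Γ₀ →* A := ρ.comp J'
  have hker' : ψ.ker = (Cfsg.Geo.scalars ι F₀).subgroupOf Γ₀ := by
    ext g
    rw [MonoidHom.mem_ker, Subgroup.mem_subgroupOf]
    show ρ (J' g) = 1 ↔ _
    rw [hker]
    show (∃ u : Fˣ, J (g : GL ι F₀) = scal u) ↔ _
    constructor
    · rintro ⟨u, hu⟩
      obtain ⟨i⟩ := (inferInstance : Nonempty ι)
      have hent : ∀ a b, j (((g : GL ι F₀) : Matrix ι ι F₀) a b) = if a = b then (u : F) else 0 := by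
        intro a b
        have := congrArg (fun x : GL ι F => (x : Matrix ι ι F) a b) hu
        have h2 : ((scal u : GL ι F) : Matrix ι ι F) a b = if a = b then (u : F) else 0 := by
          show (Matrix.scalar ι (u : F)) a b = _
          rw [scalar_apply, diagonal_apply]
        rw [← h2]; exact this
      have hne : ((g : GL ι F₀) : Matrix ι ι F₀) i i ≠ 0 := by
        intro h
        have := hent i i
        rw [h, map_zero, if_pos rfl] at this
        exact u.ne_zero this.symm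
      refine ⟨Units.mk0 _ hne, ?_⟩
      apply Units.ext
      ext a b
      apply hj
      rw [hent]
      show j ((Matrix.scalar ι (((g : GL ι F₀) : Matrix ι ι F₀) i i)) a b) = _
      rw [scalar_apply, diagonal_apply]
      split_ifs
      · rw [hent, if_pos rfl]
      · exact map_zero j
    · rintro ⟨u, hu⟩
      refine ⟨Units.map (j : F₀ →* F) u, ?_⟩
      have hu' : Matrix.GeneralLinearGroup.scalar ι u = (g : GL ι F₀) := hu
      rw [← hu']
      exact Matrix.GeneralLinearGroup.map_scalar _ _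
  have hrange : ψ.range = ρ.range ⊓ Subgroup.centralizer {φ} := by
    ext α
    constructor
    · rintro ⟨g, rfl⟩
      refine ⟨⟨J' g, rfl⟩, Subgroup.mem_centralizer_singleton_iff.2 ?_⟩
      exact (comm_iff hσΓ hφ hker (J' g)).2 ⟨1, J g, hJσ g, by rw [scal_one, one_mul]; rfl⟩
    · rintro ⟨⟨c, rfl⟩, hc⟩
      have hc' := Subgroup.mem_centralizer_singleton_iff.1 hc
      obtain ⟨u, g, hg, hcu⟩ := (comm_iff hσΓ hφ hker c).1 hc'
      obtain ⟨g₀, rfl⟩ := hJr g hg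
      have hmem : J g₀ ∈ Γ := by
        have : J g₀ = (scal u)⁻¹ * (c : GL ι F) := by rw [hcu, inv_mul_cancel_left]
        rw [this]
        exact Γ.mul_mem (Γ.inv_mem (hscal u)) c.2
      refine ⟨⟨g₀, (hΓ₀ g₀).1 hmem⟩, ?_⟩
      show ρ (J' ⟨g₀, (hΓ₀ g₀).1 hmem⟩) = ρ c
      rw [rho_eq_iff hker]
      refine ⟨u⁻¹, ?_⟩
      rw [hcu, ← mul_assoc, ← map_mul, inv_mul_cancel, map_one, one_mul]; rfl
  have e1 : (Γ₀ ⧸ ψ.ker) ≃* ψ.range := QuotientGroup.quotientKerEquivRange ψ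
  have e2 : Cfsg.projQuot Γ₀ ≃* (Γ₀ ⧸ ψ.ker) := (QuotientGroup.quotientMulEquivOfEq hker').symm
  exact ⟨((e2.trans e1).trans (MulEquiv.subgroupCongr hrange)).symm⟩

/-- Lang's theorem in `ρ(Γ)`. -/
theorem lang_abs [Finite F] [Nonempty ι] (hσΓ : ∀ g ∈ Γ, gm σ g ∈ Γ) (hφ : ∀ g : Γ, φ * ρ g = ρ ⟨gm σ g, hσΓ g g.2⟩ * φ)
    (hker : ∀ g : Γ, ρ g = 1 ↔ ∃ u : Fˣ, (g : GL ι F) = scal u) {r : ℕ} (hr : 0 < r) (ho : orderOf σ = r) (hφr : φ ^ r = 1)
    (hform : ∀ (g : Γ) (l : Fˣ) (k : GL ι F), (g : GL ι F) * gm σ k = scal l * k → ∃ h : GL ι F, gm σ h = h ∧ k * h ∈ Γ)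
    (g : Γ) (h : (ρ g * φ) ^ r = 1) : ∃ k : Γ, ρ g * φ = ρ k * φ * (ρ k)⁻¹ := by
  rw [semi_pow hσΓ hφ, hφr, mul_one, hker] at h
  obtain ⟨u, hu⟩ := h
  obtain ⟨l, k, hk⟩ := lang_matrix hr ho (g := (g : GL ι F)) hu
  obtain ⟨h, hh, hkh⟩ := hform g l k hk
  refine ⟨⟨k * h, hkh⟩, ?_⟩
  rw [eq_mul_inv_iff_mul_eq, mul_assoc, hφ, ← mul_assoc, mul_left_inj, ← map_mul, rho_eq_iff hker]
  refine ⟨l, ?_⟩
  show (g : GL ι F) * gm σ (k * h) = scal l * (k * h)
  rw [map_mul, hh, ← mul_assoc, hk, mul_assoc]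

end Abstract

end CfsgLib.Semi27
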