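import Cfsg.Agent.LibAutPSp27d
import Cfsg.Agent.LibSemi27
import Cfsg.Agent.LibForms27
import Cfsg.Agent.LibAutPSL27l

set_option autoImplicit false

/-! Field automorphisms of `PSp_{2m}(F)`. -/

namespace CfsgLib.AutPSp27

open Matrix Cfsg.Agent.H22 CfsgLib.SylCen27 CfsgLib.FTPG27 CfsgLib.Semi27 CfsgLib.H9027

variable {m : ℕ} {F : Type*} [Field F]

local notation "V" => (Fin m ⊕ Fin m → F)
local notation "Sp" => (Matrix.symplecticGroup (Fin m) F)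
local notation "B" => (spB m F)
local notation "π" => (QuotientGroup.mk' (Subgroup.center (Matrix.symplecticGroup (Fin m) F)))

theorem mem_GSp {g : GL (Fin m ⊕ Fin m) F} : g ∈ Cfsg.GSp m F ↔
    ∃ c : Fˣ, ∀ u v, B ((g : Matrix (Fin m ⊕ Fin m) (Fin m ⊕ Fin m) F) *ᵥ u) ((g : Matrix (Fin m ⊕ Fin m) (Fin m ⊕ Fin m) F) *ᵥ v) = c * B u v := by
  simp only [spB_apply]
  exact Iff.rfl

theorem mem_Sp_iff {A : Matrix (Fin m ⊕ Fin m) (Fin m ⊕ Fin m) F} :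
    A ∈ Sp ↔ ∀ u v, B (A *ᵥ u) (A *ᵥ v) = B u v := by
  rw [mem_sp_iff]
  simp only [spB_apply]

theorem conj_mem (g : Cfsg.GSp m F) (s : Sp) :
    ((g : GL (Fin m ⊕ Fin m) F) : Matrix (Fin m ⊕ Fin m) (Fin m ⊕ Fin m) F) * (s : Matrix (Fin m ⊕ Fin m) (Fin m ⊕ Fin m) F) *
      (((g : GL (Fin m ⊕ Fin m) F)⁻¹ : GL (Fin m ⊕ Fin m) F) : Matrix (Fin m ⊕ Fin m) (Fin m ⊕ Fin m) F) ∈ Sp := by
  obtain ⟨c, hc⟩ := mem_GSp.1 g.2
  rw [mem_Sp_iff]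
  intro u v
  rw [← mulVec_mulVec, ← mulVec_mulVec, ← mulVec_mulVec, ← mulVec_mulVec, hc, mem_Sp_iff.1 s.2, ← hc, mulVec_mulVec, mulVec_mulVec,
    Units.mul_inv, one_mulVec, one_mulVec]

/-- conjugation by a similitude on `Sp` -/
noncomputable def cjS : Cfsg.GSp m F →* MulAut Sp where
  toFun g :=
    { toFun := fun s => ⟨_, conj_mem g s⟩
      invFun := fun s => ⟨_, conj_mem g⁻¹ s⟩
      left_inv := fun s => by
        apply Subtype.ext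
        show ((((g : GL (Fin m ⊕ Fin m) F)⁻¹ : GL (Fin m ⊕ Fin m) F)) : Matrix (Fin m ⊕ Fin m) (Fin m ⊕ Fin m) F) *
          (((g : GL (Fin m ⊕ Fin m) F) : Matrix (Fin m ⊕ Fin m) (Fin m ⊕ Fin m) F) * (s : Matrix (Fin m ⊕ Fin m) (Fin m ⊕ Fin m) F) *
          (((g : GL (Fin m ⊕ Fin m) F)⁻¹ : GL (Fin m ⊕ Fin m) F) : Matrix (Fin m ⊕ Fin m) (Fin m ⊕ Fin m) F)) *
          ((((g : GL (Fin m ⊕ Fin m) F)⁻¹)⁻¹ : GL (Fin m ⊕ Fin m) F) : Matrix (Fin m ⊕ Fin m) (Fin m ⊕ Fin m) F) = s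
        rw [inv_inv, mul_assoc, mul_assoc, mul_assoc, Units.inv_mul, mul_one, ← mul_assoc, Units.inv_mul, one_mul]
      right_inv := fun s => by
        apply Subtype.ext
        show ((g : GL (Fin m ⊕ Fin m) F) : Matrix (Fin m ⊕ Fin m) (Fin m ⊕ Fin m) F) *
          ((((g : GL (Fin m ⊕ Fin m) F)⁻¹ : GL (Fin m ⊕ Fin m) F) : Matrix (Fin m ⊕ Fin m) (Fin m ⊕ Fin m) F) * (s : Matrix (Fin m ⊕ Fin m) (Fin m ⊕ Fin m) F) *
          ((((g : GL (Fin m ⊕ Fin m) F)⁻¹)⁻¹ : GL (Fin m ⊕ Fin m) F) : Matrix (Fin m ⊕ Fin m) (Fin m ⊕ Fin m) F)) *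
          (((g : GL (Fin m ⊕ Fin m) F)⁻¹ : GL (Fin m ⊕ Fin m) F) : Matrix (Fin m ⊕ Fin m) (Fin m ⊕ Fin m) F) = s
        rw [inv_inv, mul_assoc, mul_assoc, mul_assoc, Units.mul_inv, mul_one, ← mul_assoc, Units.mul_inv, one_mul]
      map_mul' := fun s t => by
        apply Subtype.ext
        show ((g : GL (Fin m ⊕ Fin m) F) : Matrix (Fin m ⊕ Fin m) (Fin m ⊕ Fin m) F) *
          ((s : Matrix (Fin m ⊕ Fin m) (Fin m ⊕ Fin m) F) * (t : Matrix (Fin m ⊕ Fin m) (Fin m ⊕ Fin m) F)) *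
          (((g : GL (Fin m ⊕ Fin m) F)⁻¹ : GL (Fin m ⊕ Fin m) F) : Matrix (Fin m ⊕ Fin m) (Fin m ⊕ Fin m) F) =
          (((g : GL (Fin m ⊕ Fin m) F) : Matrix (Fin m ⊕ Fin m) (Fin m ⊕ Fin m) F) * (s : Matrix (Fin m ⊕ Fin m) (Fin m ⊕ Fin m) F) *
          (((g : GL (Fin m ⊕ Fin m) F)⁻¹ : GL (Fin m ⊕ Fin m) F) : Matrix (Fin m ⊕ Fin m) (Fin m ⊕ Fin m) F)) *
          (((g : GL (Fin m ⊕ Fin m) F) : Matrix (Fin m ⊕ Fin m) (Fin m ⊕ Fin m) F) * (t : Matrix (Fin m ⊕ Fin m) (Fin m ⊕ Fin m) F) *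
          (((g : GL (Fin m ⊕ Fin m) F)⁻¹ : GL (Fin m ⊕ Fin m) F) : Matrix (Fin m ⊕ Fin m) (Fin m ⊕ Fin m) F))
        calc _ = ((g : GL (Fin m ⊕ Fin m) F) : Matrix (Fin m ⊕ Fin m) (Fin m ⊕ Fin m) F) * (s : Matrix (Fin m ⊕ Fin m) (Fin m ⊕ Fin m) F) * 1 *
              (t : Matrix (Fin m ⊕ Fin m) (Fin m ⊕ Fin m) F) *
              (((g : GL (Fin m ⊕ Fin m) F)⁻¹ : GL (Fin m ⊕ Fin m) F) : Matrix (Fin m ⊕ Fin m) (Fin m ⊕ Fin m) F) := by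
              rw [mul_one, mul_assoc, mul_assoc, mul_assoc, mul_assoc]
          _ = _ := by
              rw [← Units.inv_mul (g : GL (Fin m ⊕ Fin m) F)]; simp only [mul_assoc] }
  map_one' := by
    apply MulEquiv.ext
    intro s
    apply Subtype.ext
    show ((1 : GL (Fin m ⊕ Fin m) F) : Matrix (Fin m ⊕ Fin m) (Fin m ⊕ Fin m) F) * (s : Matrix (Fin m ⊕ Fin m) (Fin m ⊕ Fin m) F) *
      (((1 : GL (Fin m ⊕ Fin m) F)⁻¹ : GL (Fin m ⊕ Fin m) F) : Matrix (Fin m ⊕ Fin m) (Fin m ⊕ Fin m) F) = s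
    rw [inv_one, Units.val_one, one_mul, mul_one]
  map_mul' g h := by
    apply MulEquiv.ext
    intro s
    apply Subtype.ext
    show (((g : GL (Fin m ⊕ Fin m) F) * (h : GL (Fin m ⊕ Fin m) F) : GL (Fin m ⊕ Fin m) F) : Matrix (Fin m ⊕ Fin m) (Fin m ⊕ Fin m) F) *
      (s : Matrix (Fin m ⊕ Fin m) (Fin m ⊕ Fin m) F) *
      ((((g : GL (Fin m ⊕ Fin m) F) * (h : GL (Fin m ⊕ Fin m) F))⁻¹ : GL (Fin m ⊕ Fin m) F) : Matrix (Fin m ⊕ Fin m) (Fin m ⊕ Fin m) F) =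
      ((g : GL (Fin m ⊕ Fin m) F) : Matrix (Fin m ⊕ Fin m) (Fin m ⊕ Fin m) F) * (((h : GL (Fin m ⊕ Fin m) F) : Matrix (Fin m ⊕ Fin m) (Fin m ⊕ Fin m) F) *
      (s : Matrix (Fin m ⊕ Fin m) (Fin m ⊕ Fin m) F) * (((h : GL (Fin m ⊕ Fin m) F)⁻¹ : GL (Fin m ⊕ Fin m) F) : Matrix (Fin m ⊕ Fin m) (Fin m ⊕ Fin m) F)) *
      (((g : GL (Fin m ⊕ Fin m) F)⁻¹ : GL (Fin m ⊕ Fin m) F) : Matrix (Fin m ⊕ Fin m) (Fin m ⊕ Fin m) F)
    rw [_root_.mul_inv_rev, Units.val_mul, Units.val_mul]; simp only [mul_assoc]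

theorem coe_cjS (g : Cfsg.GSp m F) (s : Sp) : ((cjS g s : Sp) : Matrix (Fin m ⊕ Fin m) (Fin m ⊕ Fin m) F) =
    ((g : GL (Fin m ⊕ Fin m) F) : Matrix (Fin m ⊕ Fin m) (Fin m ⊕ Fin m) F) * (s : Matrix (Fin m ⊕ Fin m) (Fin m ⊕ Fin m) F) *
      (((g : GL (Fin m ⊕ Fin m) F)⁻¹ : GL (Fin m ⊕ Fin m) F) : Matrix (Fin m ⊕ Fin m) (Fin m ⊕ Fin m) F) := rfl

theorem map_mem (σ : F ≃+* F) (s : Sp) : (s : Matrix (Fin m ⊕ Fin m) (Fin m ⊕ Fin m) F).map σ ∈ Sp := by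
  rw [mem_Sp_iff]
  intro u v
  have h : ∀ u : V, σ ∘ (σ.symm ∘ u) = u := fun u => by ext i; simp
  rw [← h u, ← h v, gm_mulVec, gm_mulVec, B_sigma, B_sigma, mem_Sp_iff.1 s.2]

/-- entrywise field automorphism on `Sp` -/
noncomputable def fS : (F ≃+* F) →* MulAut Sp where
  toFun σ :=
    { toFun := fun s => ⟨_, map_mem σ s⟩
      invFun := fun s => ⟨_, map_mem σ.symm s⟩
      left_inv := fun s => by
        apply Subtype.ext
        ext i j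
        exact σ.symm_apply_apply _
      right_inv := fun s => by
        apply Subtype.ext
        ext i j
        exact σ.apply_symm_apply _
      map_mul' := fun s t => by
        apply Subtype.ext
        show ((s : Matrix (Fin m ⊕ Fin m) (Fin m ⊕ Fin m) F) * (t : Matrix (Fin m ⊕ Fin m) (Fin m ⊕ Fin m) F)).map (σ : F →+* F) =
          (s : Matrix (Fin m ⊕ Fin m) (Fin m ⊕ Fin m) F).map (σ : F →+* F) * (t : Matrix (Fin m ⊕ Fin m) (Fin m ⊕ Fin m) F).map (σ : F →+* F)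
        rw [Matrix.map_mul] }
  map_one' := by
    apply MulEquiv.ext
    intro s
    rfl
  map_mul' σ τ := by
    apply MulEquiv.ext
    intro s
    rfl

theorem coe_fS (σ : F ≃+* F) (s : Sp) : ((fS σ s : Sp) : Matrix (Fin m ⊕ Fin m) (Fin m ⊕ Fin m) F) =
    (s : Matrix (Fin m ⊕ Fin m) (Fin m ⊕ Fin m) F).map σ := rfl

theorem gm_mem {σ : F ≃+* F} {g : GL (Fin m ⊕ Fin m) F} (hg : g ∈ Cfsg.GSp m F) : gm σ g ∈ Cfsg.GSp m F := by
  rw [mem_GSp] at hg ⊢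
  obtain ⟨c, hc⟩ := hg
  refine ⟨Units.map ((σ : F →+* F) : F →* F) c, fun u v => ?_⟩
  have h : ∀ u : V, σ ∘ (σ.symm ∘ u) = u := fun u => by ext i; simp
  rw [coe_gm, ← h u, ← h v, gm_mulVec, gm_mulVec, B_sigma, B_sigma, hc, map_mul]
  rfl

theorem map_mul' (σ : F ≃+* F) (M N : Matrix (Fin m ⊕ Fin m) (Fin m ⊕ Fin m) F) : (M * N).map σ = M.map σ * N.map σ :=
  Matrix.map_mul (f := (σ : F →+* F))

/-- field automorphism on `GSp` -/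
noncomputable def gmS (σ : F ≃+* F) (g : Cfsg.GSp m F) : Cfsg.GSp m F := ⟨gm σ (g : GL (Fin m ⊕ Fin m) F), gm_mem g.2⟩

theorem coe_gmS (σ : F ≃+* F) (g : Cfsg.GSp m F) : (gmS σ g : GL (Fin m ⊕ Fin m) F) = gm σ (g : GL (Fin m ⊕ Fin m) F) := rfl

theorem fS_mul_cjS (σ : F ≃+* F) (g : Cfsg.GSp m F) : fS σ * cjS g = cjS (gmS σ g) * fS σ := by
  apply MulEquiv.ext
  intro s
  apply Subtype.ext
  have e : (((gm σ (g : GL (Fin m ⊕ Fin m) F))⁻¹ : GL (Fin m ⊕ Fin m) F) : Matrix (Fin m ⊕ Fin m) (Fin m ⊕ Fin m) F) =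
      (((g : GL (Fin m ⊕ Fin m) F)⁻¹ : GL (Fin m ⊕ Fin m) F) : Matrix (Fin m ⊕ Fin m) (Fin m ⊕ Fin m) F).map σ := by
    rw [← map_inv, coe_gm]
  rw [MulAut.mul_apply, MulAut.mul_apply, coe_fS, coe_cjS, coe_cjS, coe_fS, map_mul', map_mul', coe_gmS, e, coe_gm]

/-- the representation of `GSp` on `PSp` -/
noncomputable abbrev rho (m : ℕ) (F : Type*) [Field F] : Cfsg.GSp m F →* MulAut (Cfsg.PSp m F) :=
  (CfsgLib.AutPSL27.lft (G := Matrix.symplecticGroup (Fin m) F)).comp cjS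

/-- the standard field automorphism -/
noncomputable abbrev phi (m : ℕ) {F : Type*} [Field F] (σ : F ≃+* F) : MulAut (Cfsg.PSp m F) :=
  CfsgLib.AutPSL27.lft (G := Matrix.symplecticGroup (Fin m) F) (fS σ)

theorem phi_mul_rho (σ : F ≃+* F) (g : Cfsg.GSp m F) : phi m σ * rho m F g = rho m F (gmS σ g) * phi m σ := by
  have h := congrArg (CfsgLib.AutPSL27.lft (G := Matrix.symplecticGroup (Fin m) F)) (fS_mul_cjS σ g)
  rw [map_mul, map_mul] at h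
  exact h

theorem isInd_iff {g : GL (Fin m ⊕ Fin m) F} (hg : g ∈ Cfsg.GSp m F) (σ : F ≃+* F) (β : MulAut (Cfsg.PSp m F)) :
    Cfsg.IsInducedBySemilinearPSp g σ β ↔ β = rho m F ⟨g, hg⟩ * phi m σ := by
  constructor
  · intro h
    apply MulEquiv.ext
    intro x
    induction x using QuotientGroup.induction_on with
    | H s => exact h s (cjS ⟨g, hg⟩ (fS σ s)) rfl
  · rintro rfl s s' hs
    have : s' = cjS ⟨g, hg⟩ (fS σ s) := Subtype.ext hs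
    rw [this]
    rfl

theorem isStd_iff (σ : F ≃+* F) (β : MulAut (Cfsg.PSp m F)) : Cfsg.IsStdFieldAutPSp σ β ↔ β = phi m σ := by
  constructor
  · intro h
    apply MulEquiv.ext
    intro x
    induction x using QuotientGroup.induction_on with
    | H s => exact h s (fS σ s) rfl
  · rintro rfl s s' hs
    have : s' = fS σ s := Subtype.ext hs
    rw [this]
    rfl

theorem inndiag_eq : Cfsg.inndiagPSp m F = (rho m F).range := by
  apply le_antisymm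
  · refine (Subgroup.closure_le _).2 ?_
    rintro β ⟨g, hg, h⟩
    rw [isInd_iff hg] at h
    refine ⟨⟨g, hg⟩, ?_⟩
    rw [h]
    have : phi m (RingEquiv.refl F) = 1 := map_one ((CfsgLib.AutPSL27.lft (G := Matrix.symplecticGroup (Fin m) F)).comp fS)
    rw [this, mul_one]
  · rintro _ ⟨g, rfl⟩
    apply Subgroup.subset_closure
    refine ⟨g, g.2, ?_⟩
    rw [isInd_iff g.2]
    have : phi m (RingEquiv.refl F) = 1 := map_one ((CfsgLib.AutPSL27.lft (G := Matrix.symplecticGroup (Fin m) F)).comp fS)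
    rw [this, mul_one]

end CfsgLib.AutPSp27
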