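import Cfsg.Agent.LibAutPSp27e

set_option autoImplicit false

/-! Field automorphisms of `PSp_{2m}(F)`, part 2. -/

namespace CfsgLib.AutPSp27

open Matrix Cfsg.Agent.H22 CfsgLib.SylCen27 CfsgLib.FTPG27 CfsgLib.Semi27 CfsgLib.H9027

variable {m : ℕ} {F : Type*} [Field F]

local notation "V" => (Fin m ⊕ Fin m → F)
local notation "Sp" => (Matrix.symplecticGroup (Fin m) F)
local notation "B" => (spB m F)
local notation "π" => (QuotientGroup.mk' (Subgroup.center (Matrix.symplecticGroup (Fin m) F)))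

theorem cjS_spT (g : Cfsg.GSp m F) {c : Fˣ}
    (hc : ∀ u v, B (((g : GL (Fin m ⊕ Fin m) F) : Matrix (Fin m ⊕ Fin m) (Fin m ⊕ Fin m) F) *ᵥ u)
      (((g : GL (Fin m ⊕ Fin m) F) : Matrix (Fin m ⊕ Fin m) (Fin m ⊕ Fin m) F) *ᵥ v) = c * B u v) (v : V) (a : F) :
    cjS g (spT v a) = spT (((g : GL (Fin m ⊕ Fin m) F) : Matrix (Fin m ⊕ Fin m) (Fin m ⊕ Fin m) F) *ᵥ v) ((c : F)⁻¹ * a) := by
  apply sp_ext'
  intro x
  rw [coe_cjS, coe_spT, coe_spT, ← mulVec_mulVec, ← mulVec_mulVec, sympTransvection_mulVec, sympTransvection_mulVec, mulVec_add,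
    mulVec_smul]
  have hx : ((g : GL (Fin m ⊕ Fin m) F) : Matrix (Fin m ⊕ Fin m) (Fin m ⊕ Fin m) F) *ᵥ
    ((((g : GL (Fin m ⊕ Fin m) F)⁻¹ : GL (Fin m ⊕ Fin m) F) : Matrix (Fin m ⊕ Fin m) (Fin m ⊕ Fin m) F) *ᵥ x) = x := by
    rw [mulVec_mulVec, Units.mul_inv, one_mulVec]
  have h1 := hc ((((g : GL (Fin m ⊕ Fin m) F)⁻¹ : GL (Fin m ⊕ Fin m) F) : Matrix (Fin m ⊕ Fin m) (Fin m ⊕ Fin m) F) *ᵥ x) v
  rw [hx] at h1
  rw [hx, h1]
  congr 2
  have := c.ne_zero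
  field_simp

theorem fS_spT (σ : F ≃+* F) (v : V) (a : F) : fS σ (spT v a) = spT (σ ∘ v : V) (σ a) := by
  apply sp_ext'
  intro x
  have h : ∀ u : V, σ ∘ (σ.symm ∘ u) = u := fun u => by ext i; simp
  rw [coe_fS, coe_spT, coe_spT, ← h x, gm_mulVec, sympTransvection_mulVec, sympTransvection_mulVec, B_sigma]
  ext i
  simp

theorem sigma_ne_zero {σ : F ≃+* F} {v : V} (hv : v ≠ 0) : (σ ∘ v : V) ≠ 0 := by
  intro h
  apply hv
  ext i
  have := congrFun h i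
  exact (map_eq_zero_iff σ σ.injective).1 this

theorem image_R (g : Cfsg.GSp m F) (σ : F ≃+* F) (v : V) :
    (rho m F g * phi m σ) '' R v = R (((g : GL (Fin m ⊕ Fin m) F) : Matrix (Fin m ⊕ Fin m) (Fin m ⊕ Fin m) F) *ᵥ (σ ∘ v)) := by
  obtain ⟨c, hc⟩ := mem_GSp.1 g.2
  ext z
  constructor
  · rintro ⟨_, ⟨_, ⟨a, rfl⟩, rfl⟩, rfl⟩
    refine ⟨_, ⟨(c : F)⁻¹ * σ a, rfl⟩, ?_⟩
    rw [← cjS_spT g hc, ← fS_spT]
    rfl
  · rintro ⟨_, ⟨a, rfl⟩, rfl⟩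
    refine ⟨_, ⟨_, ⟨σ.symm ((c : F) * a), rfl⟩, rfl⟩, ?_⟩
    show π (cjS g (fS σ (spT v (σ.symm ((c : F) * a))))) = _
    rw [fS_spT, cjS_spT g hc, σ.apply_symm_apply, ← mul_assoc, inv_mul_cancel₀ c.ne_zero, one_mul]

theorem unique_one {p : ℕ} [Fact p.Prime] [CharP F p] (hm : 1 ≤ m) {g : Cfsg.GSp m F} {σ : F ≃+* F}
    (h : rho m F g * phi m σ = 1) : σ = 1 ∧ ∃ u : Fˣ, (g : GL (Fin m ⊕ Fin m) F) = scal u := by
  haveI : Nontrivial (Fin m ⊕ Fin m) := ⟨Sum.inl ⟨0, hm⟩, Sum.inr ⟨0, hm⟩, by simp⟩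
  apply semi_scalar
  intro v hv
  have h1 := image_R g σ v
  rw [h] at h1
  have h2 : R v = R (((g : GL (Fin m ⊕ Fin m) F) : Matrix (Fin m ⊕ Fin m) (Fin m ⊕ Fin m) F) *ᵥ (σ ∘ v)) := by
    rw [← h1]
    ext z
    constructor
    · intro hz; exact ⟨z, hz, rfl⟩
    · rintro ⟨z', hz', rfl⟩; exact hz'
  obtain ⟨c, -, hc⟩ := R_inj (p := p) hv h2
  exact ⟨c, hc⟩

theorem scal_mem (u : Fˣ) : (scal u : GL (Fin m ⊕ Fin m) F) ∈ Cfsg.GSp m F := by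
  rw [mem_GSp]
  refine ⟨u * u, fun x y => ?_⟩
  rw [scal_mulVec, scal_mulVec, map_smul, map_smul, LinearMap.smul_apply, smul_eq_mul, smul_eq_mul, Units.val_mul, mul_assoc]

/-- a symplectic matrix as a similitude -/
noncomputable def toGSp (s : Sp) : Cfsg.GSp m F :=
  ⟨⟨(s : Matrix (Fin m ⊕ Fin m) (Fin m ⊕ Fin m) F), ((s⁻¹ : Sp) : Matrix (Fin m ⊕ Fin m) (Fin m ⊕ Fin m) F),
    congrArg Subtype.val (mul_inv_cancel s), congrArg Subtype.val (inv_mul_cancel s)⟩,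
    mem_GSp.2 ⟨1, fun u v => by rw [Units.val_one, one_mul]; exact mem_Sp_iff.1 s.2 u v⟩⟩

theorem cjS_scal {g : Cfsg.GSp m F} {u : Fˣ} (h : (g : GL (Fin m ⊕ Fin m) F) = scal u) : cjS g = 1 := by
  apply MulEquiv.ext
  intro s
  apply Subtype.ext
  rw [coe_cjS, MulAut.one_apply]
  have h1 : (g : GL (Fin m ⊕ Fin m) F) * (toGSp s : GL (Fin m ⊕ Fin m) F) * (g : GL (Fin m ⊕ Fin m) F)⁻¹ =
    (toGSp s : GL (Fin m ⊕ Fin m) F) := by
    rw [h, scal_comm, mul_inv_cancel_right]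
  exact congrArg (fun x : GL (Fin m ⊕ Fin m) F => (x : Matrix (Fin m ⊕ Fin m) (Fin m ⊕ Fin m) F)) h1

theorem rho_ker {p : ℕ} [Fact p.Prime] [CharP F p] (hm : 1 ≤ m) (g : Cfsg.GSp m F) :
    rho m F g = 1 ↔ ∃ u : Fˣ, (g : GL (Fin m ⊕ Fin m) F) = scal u := by
  constructor
  · intro h
    have hφ : phi m (1 : F ≃+* F) = 1 := map_one ((CfsgLib.AutPSL27.lft (G := Matrix.symplecticGroup (Fin m) F)).comp fS)
    exact (unique_one (p := p) hm (g := g) (σ := 1) (by rw [hφ, mul_one, h])).2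
  · rintro ⟨u, hu⟩
    show CfsgLib.AutPSL27.lft (cjS g) = 1
    rw [cjS_scal hu, map_one]

theorem phi_pow (σ : F ≃+* F) (k : ℕ) : phi m σ ^ k = phi m (σ ^ k) :=
  (map_pow ((CfsgLib.AutPSL27.lft (G := Matrix.symplecticGroup (Fin m) F)).comp fS) σ k).symm

theorem phi_one : phi m (1 : F ≃+* F) = 1 := map_one ((CfsgLib.AutPSL27.lft (G := Matrix.symplecticGroup (Fin m) F)).comp fS)

theorem phi_eq_one {p : ℕ} [Fact p.Prime] [CharP F p] (hm : 1 ≤ m) {σ : F ≃+* F} (h : phi m σ = 1) : σ = 1 :=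
  (unique_one (p := p) hm (g := 1) (σ := σ) (by rw [map_one, one_mul, h])).1

/-! ### the multiplier -/

theorem exists_pair_one (hm : 1 ≤ m) : ∃ x y : V, B x y = 1 := by
  have hv0 : (Pi.single (Sum.inl ⟨0, hm⟩) 1 : V) ≠ 0 := by
    intro h
    have h2 := congrFun h (Sum.inl ⟨0, hm⟩)
    simp at h2
  obtain ⟨x0, hx0⟩ := exists_dual hv0
  exact ⟨x0, _, hx0⟩

theorem mult_unique (hm : 1 ≤ m) {g : Cfsg.GSp m F} {c d : Fˣ}
    (hc : ∀ u v, B (((g : GL (Fin m ⊕ Fin m) F) : Matrix (Fin m ⊕ Fin m) (Fin m ⊕ Fin m) F) *ᵥ u)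
      (((g : GL (Fin m ⊕ Fin m) F) : Matrix (Fin m ⊕ Fin m) (Fin m ⊕ Fin m) F) *ᵥ v) = c * B u v)
    (hd : ∀ u v, B (((g : GL (Fin m ⊕ Fin m) F) : Matrix (Fin m ⊕ Fin m) (Fin m ⊕ Fin m) F) *ᵥ u)
      (((g : GL (Fin m ⊕ Fin m) F) : Matrix (Fin m ⊕ Fin m) (Fin m ⊕ Fin m) F) *ᵥ v) = d * B u v) : c = d := by
  obtain ⟨x, y, hxy⟩ := exists_pair_one (F := F) hm
  have h1 := hc x y
  rw [hd, hxy, mul_one, mul_one] at h1
  exact Units.ext h1.symm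

/-- the multiplier -/
noncomputable def mult (hm : 1 ≤ m) : Cfsg.GSp m F →* Fˣ where
  toFun g := Classical.choose (mem_GSp.1 g.2)
  map_one' := by
    apply mult_unique hm (g := 1) (Classical.choose_spec (mem_GSp.1 (1 : Cfsg.GSp m F).2))
    intro u v
    simp
  map_mul' g h := by
    apply mult_unique hm (g := g * h) (Classical.choose_spec (mem_GSp.1 (g * h : Cfsg.GSp m F).2))
    intro u v
    rw [Subgroup.coe_mul, Units.val_mul, ← mulVec_mulVec, ← mulVec_mulVec, Classical.choose_spec (mem_GSp.1 g.2),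
      Classical.choose_spec (mem_GSp.1 h.2), Units.val_mul, mul_assoc]

theorem mult_spec (hm : 1 ≤ m) (g : Cfsg.GSp m F) (u v : V) :
    B (((g : GL (Fin m ⊕ Fin m) F) : Matrix (Fin m ⊕ Fin m) (Fin m ⊕ Fin m) F) *ᵥ u)
      (((g : GL (Fin m ⊕ Fin m) F) : Matrix (Fin m ⊕ Fin m) (Fin m ⊕ Fin m) F) *ᵥ v) = (mult hm g : F) * B u v :=
  Classical.choose_spec (mem_GSp.1 g.2) u v

theorem mult_eq (hm : 1 ≤ m) {g : Cfsg.GSp m F} {c : Fˣ}
    (hc : ∀ u v, B (((g : GL (Fin m ⊕ Fin m) F) : Matrix (Fin m ⊕ Fin m) (Fin m ⊕ Fin m) F) *ᵥ u)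
      (((g : GL (Fin m ⊕ Fin m) F) : Matrix (Fin m ⊕ Fin m) (Fin m ⊕ Fin m) F) *ᵥ v) = c * B u v) : mult hm g = c :=
  mult_unique hm (mult_spec hm g) hc

/-- diagonal similitudes -/
noncomputable def dS (c : Fˣ) : GL (Fin m ⊕ Fin m) F :=
  ⟨diagonal (Sum.elim (fun _ => (c : F)) (fun _ => 1)), diagonal (Sum.elim (fun _ => ((c⁻¹ : Fˣ) : F)) (fun _ => 1)), by
    rw [diagonal_mul_diagonal, ← diagonal_one]
    congr 1
    ext i
    rcases i with i | i <;> simp, by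
    rw [diagonal_mul_diagonal, ← diagonal_one]
    congr 1
    ext i
    rcases i with i | i <;> simp⟩

theorem dS_spec (c : Fˣ) (u v : V) :
    B (((dS c : GL (Fin m ⊕ Fin m) F) : Matrix (Fin m ⊕ Fin m) (Fin m ⊕ Fin m) F) *ᵥ u) (((dS c : GL (Fin m ⊕ Fin m) F) : Matrix (Fin m ⊕ Fin m) (Fin m ⊕ Fin m) F) *ᵥ v) = c * B u v := by
  have h : ∀ (u : V) i, (((dS c : GL (Fin m ⊕ Fin m) F) : Matrix (Fin m ⊕ Fin m) (Fin m ⊕ Fin m) F) *ᵥ u) i = (Sum.elim (fun _ => (c : F)) (fun _ => 1) i : F) * u i := by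
    intro u i
    show (diagonal (Sum.elim (fun _ => (c : F)) (fun _ => 1)) *ᵥ u) i = _
    rw [mulVec_diagonal]
  rw [spB_apply, spB_apply, sympForm_eq_sum, sympForm_eq_sum, Finset.mul_sum]
  refine Finset.sum_congr rfl fun i _ => ?_
  rw [h, h, h, h]
  simp only [Sum.elim_inl, Sum.elim_inr]
  ring

theorem dS_mem (c : Fˣ) : (dS c : GL (Fin m ⊕ Fin m) F) ∈ Cfsg.GSp m F := mem_GSp.2 ⟨c, dS_spec c⟩

theorem mult_dS (hm : 1 ≤ m) (c : Fˣ) : mult hm ⟨dS c, dS_mem c⟩ = c := mult_eq hm (dS_spec c)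

theorem mult_scal (hm : 1 ≤ m) (u : Fˣ) (g : Cfsg.GSp m F) (h : (g : GL (Fin m ⊕ Fin m) F) = scal u) : mult hm g = u ^ 2 := by
  apply mult_eq hm
  intro x y
  rw [h, scal_mulVec, scal_mulVec, map_smul, map_smul, LinearMap.smul_apply, smul_eq_mul, smul_eq_mul, Units.val_pow_eq_pow_val]
  ring

theorem cjS_toGSp (s : Sp) : cjS (toGSp s) = MulAut.conj s := by
  apply MulEquiv.ext
  intro t
  rfl

theorem conj_mk (s : Sp) : MulAut.conj (π s) = rho m F (toGSp s) := by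
  apply MulEquiv.ext
  intro x
  induction x using QuotientGroup.induction_on with
  | H t => rfl

theorem mem_inn_iff {p : ℕ} [Fact p.Prime] [CharP F p] (hm : 1 ≤ m) (g : Cfsg.GSp m F) :
    rho m F g ∈ Cfsg.Inn (Cfsg.PSp m F) ↔ mult hm g ∈ (powMonoidHom 2 : Fˣ →* Fˣ).range := by
  constructor
  · rintro ⟨x, hx⟩
    obtain ⟨s, rfl⟩ := QuotientGroup.mk'_surjective (Subgroup.center Sp) x
    have h1 : rho m F g = rho m F (toGSp s) := by rw [← conj_mk]; exact hx.symm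
    obtain ⟨u, hu⟩ := (rho_eq_iff (rho_ker (p := p) hm) g (toGSp s)).1 h1
    refine ⟨u, ?_⟩
    symm
    apply mult_eq hm
    intro x y
    rw [hu, scal_mul_mulVec, scal_mul_mulVec, map_smul, map_smul, LinearMap.smul_apply, smul_eq_mul, smul_eq_mul]
    have := mem_Sp_iff.1 s.2 x y
    show (u : F) * ((u : F) * B ((s : Matrix (Fin m ⊕ Fin m) (Fin m ⊕ Fin m) F) *ᵥ x) ((s : Matrix (Fin m ⊕ Fin m) (Fin m ⊕ Fin m) F) *ᵥ y)) = ((u ^ 2 : Fˣ) : F) * _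
    rw [this, Units.val_pow_eq_pow_val]
    ring
  · rintro ⟨u, hu⟩
    have hu' : u ^ 2 = mult hm g := hu
    have hs : ((scal u⁻¹ * (g : GL (Fin m ⊕ Fin m) F) : GL (Fin m ⊕ Fin m) F) : Matrix (Fin m ⊕ Fin m) (Fin m ⊕ Fin m) F) ∈ Sp := by
      rw [mem_Sp_iff]
      intro x y
      rw [scal_mul_mulVec, scal_mul_mulVec, map_smul, map_smul, LinearMap.smul_apply, smul_eq_mul, smul_eq_mul, mult_spec hm, ← hu',
        Units.val_pow_eq_pow_val, Units.val_inv_eq_inv_val]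
      have := u.ne_zero
      field_simp
    refine ⟨π ⟨_, hs⟩, ?_⟩
    rw [conj_mk, rho_eq_iff (rho_ker (p := p) hm)]
    refine ⟨u⁻¹, ?_⟩
    apply Units.ext
    rfl

theorem inn_le : Cfsg.Inn (Cfsg.PSp m F) ≤ (rho m F).range := by
  rintro _ ⟨x, rfl⟩
  obtain ⟨s, rfl⟩ := QuotientGroup.mk'_surjective (Subgroup.center Sp) x
  exact ⟨_, (conj_mk s).symm⟩

/-- `Inndiag` is normal -/
theorem inndiag_normal [Finite F] {p : ℕ} [Fact p.Prime] [CharP F p] (hm : 2 ≤ m) (α : MulAut (Cfsg.PSp m F)) (g : Cfsg.GSp m F) :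
    ∃ g' : Cfsg.GSp m F, α * rho m F g * α⁻¹ = rho m F g' := by
  by_cases hp : p = 2
  · subst hp
    have h1 : rho m F g ∈ Cfsg.Inn (Cfsg.PSp m F) := by
      rw [mem_inn_iff (p := 2) (by omega)]
      haveI : ExpChar F 2 := ExpChar.prime Fact.out
      have hsurj : Function.Surjective (frobenius F 2) := Finite.surjective_of_injective (frobenius_inj F 2)
      obtain ⟨y, hy⟩ := hsurj (mult (by omega : 1 ≤ m) g : F)
      have hy' : y ^ 2 = (mult (by omega : 1 ≤ m) g : F) := hy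
      have hy0 : y ≠ 0 := by
        rintro rfl
        rw [zero_pow (by norm_num)] at hy'
        exact (mult (by omega : 1 ≤ m) g).ne_zero hy'.symm
      refine ⟨Units.mk0 y hy0, ?_⟩
      apply Units.ext
      exact hy'
    have h2 := (Cfsg.innNormal (Cfsg.PSp m F)).conj_mem _ h1 α
    obtain ⟨g', hg'⟩ := inn_le h2
    exact ⟨g', hg'.symm⟩
  · obtain ⟨h, σ, hh, hα⟩ := main (p := p) hm (fun _ => hp) α
    rw [isInd_iff hh] at hα
    refine ⟨⟨h, hh⟩ * gmS σ g * ⟨h, hh⟩⁻¹, ?_⟩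
    rw [hα, mul_inv_eq_iff_eq_mul, map_mul, map_mul, map_inv, mul_assoc, phi_mul_rho]
    group

end CfsgLib.AutPSp27
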