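import Cfsg.Agent.LibAutPSp27f
import Cfsg.Agent.LibH22SpOrder

set_option autoImplicit false

/-! Field automorphisms of `PSp_{2m}(F)`, part 3. -/

namespace CfsgLib.AutPSp27

open Matrix Cfsg.Agent.H22 CfsgLib.SylCen27 CfsgLib.FTPG27 CfsgLib.Semi27 CfsgLib.H9027

variable {m : ℕ} {F : Type*} [Field F]

local notation "V" => (Fin m ⊕ Fin m → F)
local notation "Sp" => (Matrix.symplecticGroup (Fin m) F)
local notation "B" => (spB m F)
local notation "π" => (QuotientGroup.mk' (Subgroup.center (Matrix.symplecticGroup (Fin m) F)))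

theorem B_single (i j : Fin m ⊕ Fin m) : B (Pi.single i 1) (Pi.single j 1) = Matrix.J (Fin m) F i j := by
  unfold spB
  rw [Matrix.toBilin'_single]

theorem hform (hm : 1 ≤ m) {σ : F ≃+* F} (g : Cfsg.GSp m F) (l : Fˣ) (k : GL (Fin m ⊕ Fin m) F)
    (hk : (g : GL (Fin m ⊕ Fin m) F) * gm σ k = scal l * k) : ∃ h : GL (Fin m ⊕ Fin m) F, gm σ h = h ∧ k * h ∈ Cfsg.GSp m F := by
  obtain ⟨μ, hμ⟩ := mem_GSp.1 g.2
  let C : LinearMap.BilinForm F V := (B).compl₁₂ (Matrix.toLin' (k : Matrix (Fin m ⊕ Fin m) (Fin m ⊕ Fin m) F))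
    (Matrix.toLin' (k : Matrix (Fin m ⊕ Fin m) (Fin m ⊕ Fin m) F))
  have hC : ∀ x y, C x y = B ((k : Matrix (Fin m ⊕ Fin m) (Fin m ⊕ Fin m) F) *ᵥ x) ((k : Matrix (Fin m ⊕ Fin m) (Fin m ⊕ Fin m) F) *ᵥ y) :=
    fun _ _ => rfl
  have hkinv : ∀ y : V, (k : Matrix (Fin m ⊕ Fin m) (Fin m ⊕ Fin m) F) *ᵥ (((k⁻¹ : GL (Fin m ⊕ Fin m) F) : Matrix (Fin m ⊕ Fin m) (Fin m ⊕ Fin m) F) *ᵥ y) = y := by
    intro y
    rw [mulVec_mulVec, Units.mul_inv, one_mulVec]
  have hknd : ∀ x : V, (∀ j, C x (Pi.single j 1) = 0) → x = 0 := by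
    intro x hx
    have h1 : C x = 0 := by
      apply (Pi.basisFun F (Fin m ⊕ Fin m)).ext
      intro j
      rw [Pi.basisFun_apply]
      exact hx j
    have h2 : (k : Matrix (Fin m ⊕ Fin m) (Fin m ⊕ Fin m) F) *ᵥ x = 0 := by
      apply nondeg
      intro y
      rw [← hkinv y, ← hC, h1, LinearMap.zero_apply]
    have h3 := congrArg (fun v => ((k⁻¹ : GL (Fin m ⊕ Fin m) F) : Matrix (Fin m ⊕ Fin m) (Fin m ⊕ Fin m) F) *ᵥ v) h2
    simpa [mulVec_mulVec] using h3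
  have hσC : ∀ i j, (μ : F) * σ (C (Pi.single i 1) (Pi.single j 1)) = (l : F) * (l : F) * C (Pi.single i 1) (Pi.single j 1) := by
    intro i j
    have e : ∀ i, ((g : GL (Fin m ⊕ Fin m) F) : Matrix (Fin m ⊕ Fin m) (Fin m ⊕ Fin m) F) *ᵥ
        (σ ∘ ((k : Matrix (Fin m ⊕ Fin m) (Fin m ⊕ Fin m) F) *ᵥ Pi.single i 1)) = (l : F) • ((k : Matrix (Fin m ⊕ Fin m) (Fin m ⊕ Fin m) F) *ᵥ Pi.single i 1) := by
      intro i
      rw [← gm_mulVec, comp_single, ← coe_gm, mulVec_mulVec, ← Units.val_mul, hk, scal_mul_mulVec]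
    rw [hC, ← B_sigma, ← hμ, e, e, map_smul, map_smul, LinearMap.smul_apply, smul_eq_mul, smul_eq_mul, mul_assoc]
  obtain ⟨i0, j0, ha⟩ : ∃ i j, C (Pi.single i 1) (Pi.single j 1) ≠ 0 := by
    by_contra hcon
    push Not at hcon
    have h1 := hknd (Pi.single (Sum.inl ⟨0, hm⟩) 1) (hcon _)
    have h2 := congrFun h1 (Sum.inl ⟨0, hm⟩)
    simp at h2
  set a := C (Pi.single i0 1) (Pi.single j0 1) with hadef
  let C' : LinearMap.BilinForm F V := a⁻¹ • C
  have hC' : ∀ x y, C' x y = a⁻¹ * C x y := fun _ _ => rfl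
  obtain ⟨C0, hC0⟩ := descend (σ := σ) C' (by
    intro i j
    rw [hC', map_mul, map_inv₀]
    have h1 := hσC i j
    have h2 := hσC i0 j0
    rw [← hadef] at h2
    have hσa : σ a ≠ 0 := fun h => ha ((map_eq_zero_iff σ σ.injective).1 h)
    have hl : (l : F) ≠ 0 := l.ne_zero
    have hμ0 : (μ : F) ≠ 0 := μ.ne_zero
    field_simp
    apply mul_left_cancel₀ (mul_ne_zero hμ0 (mul_ne_zero hl hl))
    linear_combination (l * l * a : F) * h1 - (l * l * C (Pi.single i 1) (Pi.single j 1) : F) * h2)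
  have halt : C0.IsAlt := by
    intro x
    apply Subtype.ext
    rw [hC0, hC', hC, B_self, mul_zero]; rfl
  have hnd : ∀ v : (Fin m ⊕ Fin m → fixF σ), v ≠ 0 → ∃ w, C0 v w ≠ 0 := by
    intro v hv
    by_contra hcon
    push Not at hcon
    apply hv
    have h1 := hknd (fun i => (v i : F)) (by
      intro j
      have h2 := hC0 v (Pi.single j 1)
      rw [hcon, hC'] at h2
      have h3 : (fun i => (((Pi.single j 1 : Fin m ⊕ Fin m → fixF σ) i : fixF σ) : F)) = Pi.single j 1 := by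
        ext i
        by_cases hij : i = j
        · subst hij; simp
        · simp [hij]
      rw [h3] at h2
      exact (mul_eq_zero.mp h2.symm).resolve_left (inv_ne_zero ha))
    ext i
    exact congrFun h1 i
  obtain ⟨m', b, hm', h11, h22, h12, h21⟩ := CfsgLib.Forms27.exists_symplectic_basis C0 halt hnd
  have hmm : m' = m := by
    rw [Module.finrank_fintype_fun_eq_card, Fintype.card_sum, Fintype.card_fin] at hm'
    omega
  subst hmm
  let b' := b.reindex (Equiv.sumComm (Fin m') (Fin m'))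
  have hb1 : ∀ i, b' (Sum.inl i) = b (Sum.inr i) := fun i => by simp [b']
  have hb2 : ∀ i, b' (Sum.inr i) = b (Sum.inl i) := fun i => by simp [b']
  have hbJ : ∀ i j, ((C0 (b' i) (b' j) : fixF σ) : F) = Matrix.J (Fin m') F i j := by
    intro i j
    rcases i with i | i <;> rcases j with j | j
    · rw [hb1, hb1, h22, J_entries]; rfl
    · rw [hb1, hb2, h21, J_entries]
      by_cases hij : i = j
      · simp [hij]
      · simp [hij]
    · rw [hb2, hb1, h12, J_entries]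
      by_cases hij : i = j
      · simp [hij]
      · simp [hij]
    · rw [hb2, hb2, h11, J_entries]; rfl
  obtain ⟨h0, hh0⟩ := exists_GL_of_basis b'
  let h : GL (Fin m' ⊕ Fin m') F := Matrix.GeneralLinearGroup.map (fixF σ).subtype h0
  have hhe : ∀ i, (h : Matrix (Fin m' ⊕ Fin m') (Fin m' ⊕ Fin m') F) *ᵥ Pi.single i 1 = fun j => ((b' i j : fixF σ) : F) := by
    intro i
    ext j
    rw [← hh0, mulVec_single_one, mulVec_single_one]; rfl
  refine ⟨h, ?_, ?_⟩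
  · apply Units.ext
    ext i j
    exact ((h0 : Matrix (Fin m' ⊕ Fin m') (Fin m' ⊕ Fin m') (fixF σ)) i j).2
  · rw [mem_GSp]
    refine ⟨Units.mk0 a ha, ?_⟩
    let D : LinearMap.BilinForm F (Fin m' ⊕ Fin m' → F) := C'.compl₁₂ (Matrix.toLin' (h : Matrix (Fin m' ⊕ Fin m') (Fin m' ⊕ Fin m') F))
      (Matrix.toLin' (h : Matrix (Fin m' ⊕ Fin m') (Fin m' ⊕ Fin m') F))
    have hD : D = spB m' F := by
      apply LinearMap.BilinForm.ext_basis (Pi.basisFun F (Fin m' ⊕ Fin m'))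
      intro i j
      rw [Pi.basisFun_apply, Pi.basisFun_apply, B_single, ← hbJ, hC0, ← hhe, ← hhe]
      rfl
    intro x y
    have h7 : spB m' F x y = a⁻¹ * C ((h : Matrix (Fin m' ⊕ Fin m') (Fin m' ⊕ Fin m') F) *ᵥ x) ((h : Matrix (Fin m' ⊕ Fin m') (Fin m' ⊕ Fin m') F) *ᵥ y) := by
      rw [← hD]; rfl
    rw [h7, Units.val_mk0, ← mul_assoc, mul_inv_cancel₀ ha, one_mul, hC, Units.val_mul, ← mulVec_mulVec, ← mulVec_mulVec]

/-- the splitting number -/
theorem split_field [Finite F] {p : ℕ} [Fact p.Prime] [CharP F p] (hm : 1 ≤ m) (σ : F ≃+* F) :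
    Cfsg.splitClassCount (Cfsg.inndiagPSp m F) (Cfsg.Inn (Cfsg.PSp m F)) (phi m σ) =
      Nat.gcd 2 ((Nat.card F - 1) / (Nat.card (fixF σ) - 1)) := by
  haveI : Nonempty (Fin m ⊕ Fin m) := ⟨Sum.inl ⟨0, hm⟩⟩
  have hcomm := CfsgLib.Semi27.comm_iff (ρ := rho m F) (φ := phi m σ) (σ := σ) (fun g hg => gm_mem hg) (fun g => phi_mul_rho σ g) (rho_ker (p := p) hm)
  rw [inndiag_eq, CfsgLib.Split27.splitCount_eq (rho m F) _ _
    (mult hm) (fun c => ⟨_, mult_dS hm c⟩) (powMonoidHom 2 : Fˣ →* Fˣ).range (mem_inn_iff (p := p) hm) inn_le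
    (CfsgLib.AutPSL27.fixU σ ⊔ (powMonoidHom 2 : Fˣ →* Fˣ).range)]
  · haveI : IsCyclic Fˣ := inferInstance
    have hcF : Nat.card Fˣ = Nat.card F - 1 := by
      classical
      letI := Fintype.ofFinite F
      rw [Nat.card_eq_fintype_card, Fintype.card_units, Nat.card_eq_fintype_card]
    rw [CfsgLib.Split27.index_sup, IsCyclic.index_powMonoidHom_range]
    have h1 : (CfsgLib.AutPSL27.fixU σ).index = (Nat.card F - 1) / (Nat.card (fixF σ) - 1) := by
      rw [← CfsgLib.AutPSL27.card_fixU, ← hcF, ← Subgroup.card_mul_index (CfsgLib.AutPSL27.fixU σ), Nat.mul_div_cancel_left _ Nat.card_pos]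
    have h2 : (CfsgLib.AutPSL27.fixU σ).index ∣ Nat.card Fˣ := Subgroup.index_dvd_card _
    rw [← Nat.gcd_assoc, Nat.gcd_eq_left h2, Nat.gcd_comm, h1]
  · intro z
    rw [Subgroup.mem_sup]
    constructor
    · rintro ⟨u, hu, t, ht, rfl⟩
      refine ⟨⟨dS u, dS_mem u⟩, ?_, t, ht, by rw [mult_dS]⟩
      rw [hcomm]
      refine ⟨1, dS u, ?_, by rw [scal_one, one_mul]⟩
      apply Units.ext
      show (diagonal (Sum.elim (fun _ => (u : F)) (fun _ => 1)) : Matrix (Fin m ⊕ Fin m) (Fin m ⊕ Fin m) F).map σ =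
        diagonal (Sum.elim (fun _ => (u : F)) (fun _ => 1))
      rw [diagonal_map (map_zero σ)]
      congr 1
      ext i
      rcases i with i | i
      · exact hu
      · exact map_one σ
    · rintro ⟨c, hc, t, ht, rfl⟩
      obtain ⟨u, g, hg, hcu⟩ := (hcomm c).1 hc
      have hgm : g ∈ Cfsg.GSp m F := by
        have : g = (scal u)⁻¹ * (c : GL (Fin m ⊕ Fin m) F) := by rw [hcu, inv_mul_cancel_left]
        rw [this]
        exact (Cfsg.GSp m F).mul_mem ((Cfsg.GSp m F).inv_mem (scal_mem u)) c.2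
      have hcm : mult hm c = u ^ 2 * mult hm ⟨g, hgm⟩ := by
        have h1 : c = ⟨scal u, scal_mem u⟩ * ⟨g, hgm⟩ := Subtype.ext hcu
        rw [h1, map_mul, mult_scal hm u _ rfl]
      refine ⟨mult hm ⟨g, hgm⟩, ?_, u ^ 2 * t, Subgroup.mul_mem _ ⟨u, rfl⟩ ht, ?_⟩
      · show σ ((mult hm ⟨g, hgm⟩ : Fˣ) : F) = _
        have h1 : mult hm ⟨g, hgm⟩ = Units.map ((σ : F →+* F) : F →* F) (mult hm ⟨g, hgm⟩) := by
          apply mult_eq hm
          intro x y
          have h : ∀ u : V, σ ∘ (σ.symm ∘ u) = u := fun u => by ext i; simp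
          show B ((g : Matrix (Fin m ⊕ Fin m) (Fin m ⊕ Fin m) F) *ᵥ x) ((g : Matrix (Fin m ⊕ Fin m) (Fin m ⊕ Fin m) F) *ᵥ y) = _
          conv_lhs => rw [← hg, coe_gm, ← h x, ← h y, gm_mulVec, gm_mulVec, B_sigma]
          have h2 := mult_spec hm ⟨g, hgm⟩ (σ.symm ∘ x) (σ.symm ∘ y)
          rw [h2, map_mul, ← B_sigma, h x, h y]
          rfl
        exact (congrArg Units.val h1).symm
      · rw [hcm, ← mul_assoc, mul_comm (u ^ 2)]

theorem split_arith {q0 r : ℕ} (hq : 2 ≤ q0) (hr : 1 ≤ r) :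
    Nat.gcd 2 ((q0 ^ r - 1) / (q0 - 1)) = Nat.gcd (Nat.gcd 2 (q0 ^ r - 1)) r := by
  rw [← Nat.geomSum_eq hq]
  have h2 : ∀ n, Nat.gcd 2 n = if n % 2 = 0 then 2 else 1 := by
    intro n
    rw [Nat.gcd_rec]
    rcases Nat.mod_two_eq_zero_or_one n with h | h <;> simp [h]
  rcases Nat.even_or_odd q0 with h | h
  · have e1 : (∑ k ∈ Finset.range r, q0 ^ k) % 2 = 1 := by
      obtain ⟨s, rfl⟩ : ∃ s, r = s + 1 := ⟨r - 1, by omega⟩
      rw [Finset.sum_range_succ', pow_zero, Nat.add_mod, Finset.sum_nat_mod]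
      have : ∀ k, q0 ^ (k + 1) % 2 = 0 := fun k => Nat.even_iff.1 (h.pow_of_ne_zero (by omega))
      simp [this]
    have e2 : (q0 ^ r - 1) % 2 = 1 := by
      have h3 : Even (q0 ^ r) := h.pow_of_ne_zero (by omega)
      have h4 : 0 < q0 ^ r := by positivity
      have h5 := Nat.even_iff.1 h3
      omega
    rw [h2, h2, e1, e2]
    simp
  · have e1 : (∑ k ∈ Finset.range r, q0 ^ k) % 2 = r % 2 := by
      rw [Finset.sum_nat_mod]
      have : ∀ k, q0 ^ k % 2 = 1 := fun k => Nat.odd_iff.1 h.pow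
      simp [this]
    have e2 : (q0 ^ r - 1) % 2 = 0 := by
      have h3 : Odd (q0 ^ r) := h.pow
      have h5 := Nat.odd_iff.1 h3
      omega
    rw [h2, h2 (q0 ^ r - 1), e1, e2, if_pos rfl, h2]

end CfsgLib.AutPSp27
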