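import Cfsg.Agent.LibRhoO27d

set_option autoImplicit false

/-! The order of the automorphism group of `PΩ(Q)`. -/

namespace CfsgLib.RhoO27

open Cfsg.Agent.H22 CfsgLib.Semi27 CfsgLib.AutO27 Matrix Module

theorem card_mulAut {T : Type*} [Group T] [Finite T] (hT : Function.Injective (MulAut.conj : T →* MulAut T)) :
    Nat.card (MulAut T) = Nat.card (Cfsg.Out T) * Nat.card T := by
  have h1 : Nat.card (Cfsg.Inn T) = Nat.card T := by
    have e : T ≃* Cfsg.Inn T := MonoidHom.ofInjective hT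
    exact (Nat.card_congr e.toEquiv).symm
  have h3 := Subgroup.card_mul_index (Cfsg.Inn T)
  rw [h1, mul_comm] at h3
  exact h3.symm

variable {F : Type*} [Field F] [Finite F] {ι : Type} [Fintype ι] [DecidableEq ι] {Q : QuadraticForm F (ι → F)}
  {e f : Fin 3 → (ι → F)} {u : ι → F}

theorem conj_inj (h : Gd Q e f u) : Function.Injective (MulAut.conj : Cfsg.POmega F ⇑Q →* MulAut (Cfsg.POmega F ⇑Q)) := by
  rw [injective_iff_map_eq_one]
  intro a ha
  obtain ⟨s, rfl⟩ := QuotientGroup.mk_surjective a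
  rw [conj_mk, R_ker' h] at ha
  obtain ⟨-, a, ha⟩ := ha
  have ha' : ((s : Cfsg.isometryGroup F ⇑Q) : GL ι F) = scal a := ha
  rw [QuotientGroup.eq_one_iff, Subgroup.mem_center_iff]
  intro t
  apply Subtype.ext
  apply Subtype.ext
  show ((t : Cfsg.isometryGroup F ⇑Q) : GL ι F) * ((s : Cfsg.isometryGroup F ⇑Q) : GL ι F) = ((s : Cfsg.isometryGroup F ⇑Q) : GL ι F) * ((t : Cfsg.isometryGroup F ⇑Q) : GL ι F)
  rw [ha', scal_comm]

theorem card_mulAut_pomega (h : Gd Q e f u) : Nat.card (MulAut (Cfsg.POmega F ⇑Q)) = Nat.card (Cfsg.Out (Cfsg.POmega F ⇑Q)) * Nat.card (Cfsg.POmega F ⇑Q) := by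
  haveI : Finite (Cfsg.POmega F ⇑Q) := by
    haveI : Finite (GL ι F) := inferInstance
    haveI : Finite (Cfsg.isometryGroup F ⇑Q) := inferInstance
    infer_instance
  exact card_mulAut (conj_inj h)

end CfsgLib.RhoO27
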