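import Cfsg.Agent.LibRhoOdd27b

set_option autoImplicit false

/-! The kernel of the action on `PΩ(Q)`: weaker hypotheses. -/

namespace CfsgLib.AutO27

open Cfsg.Agent.H22 CfsgLib.SylCen27 Module Matrix

/-- three hyperbolic pairs and a nonsingular vector -/
structure Gd {F V : Type*} [Field F] [AddCommGroup V] [Module F V] (Q : QuadraticForm F V) (e f : Fin 3 → V) (u : V) : Prop where
  nd : (QuadraticMap.polarBilin Q).Nondegenerate
  fr : Fr Q e f u
  h5 : 5 ≤ finrank F V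

section
variable {F V : Type*} [Field F] [AddCommGroup V] [Module F V] {Q : QuadraticForm F V}
variable {p : ℕ} [Fact p.Prime] [CharP F p] {e f : Fin 3 → V} {u : V}

theorem Good.gd (h : Good Q e f u) : Gd Q e f u := ⟨h.nd, h.fr, h.h5⟩

theorem Gd.hs (h : Gd Q e f u) : HS Q (e 0) (f 0) (e 1) (f 1) u := h.fr.hs 0 1 (by decide)

theorem Gd.hK [FiniteDimensional F V] (h : Gd Q e f u) (x : EG Q) (k : ℕ) (hx : x ^ (p ^ k) = 1) (hπ : pi Q x = 1) : x = 1 := by
  have hc : x ∈ Subgroup.center (EG Q) := (QuotientGroup.eq_one_iff x).1 hπ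
  obtain ⟨a, -, ha⟩ := h.hs.center_scalar h.nd x hc
  have hpow : ∀ n : ℕ, ∀ y, (x ^ n).1.1 y = a ^ n • y := by
    intro n
    induction n with
    | zero => intro y; rw [pow_zero, one_app, pow_zero, one_smul]
    | succ n ih => intro y; rw [pow_succ, mul_app, ha, map_smul, ih, smul_smul, pow_succ, mul_comm]
  have h1 := hpow (p ^ k) u
  rw [hx, one_app] at h1
  have hu0 : u ≠ 0 := ne_zero_of_Q h.fr.qu
  have h2 : a ^ (p ^ k) = 1 := by
    have h3 : (a ^ (p ^ k) - 1) • u = 0 := by rw [sub_smul, one_smul, ← h1, sub_self]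
    exact sub_eq_zero.1 ((smul_eq_zero.1 h3).resolve_right hu0)
  have h3 : a = 1 := by
    have h4 := sub_pow_char_pow (p := p) (n := k) a 1
    rw [h2, one_pow, sub_self] at h4
    exact sub_eq_zero.1 (pow_eq_zero_iff (pow_ne_zero _ (Fact.out : p.Prime).ne_zero) |>.1 h4)
  apply g_ext
  intro y
  rw [ha, h3, one_smul, one_app]

theorem Gd.pi_inj [FiniteDimensional F V] (h : Gd Q e f u) {a b : EG Q} (k : ℕ) (ha : a ^ (p ^ k) = 1) (hb : b ^ (p ^ k) = 1) (hab : pi Q a = pi Q b) :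
    a = b := by
  have hz : b⁻¹ * a ∈ Subgroup.center (EG Q) := QuotientGroup.eq.1 hab.symm
  have h1 : a = b * (b⁻¹ * a) := by group
  have h2 : Commute b (b⁻¹ * a) := Subgroup.mem_center_iff.1 hz b
  have h3 : (b⁻¹ * a) ^ (p ^ k) = 1 := by
    have h4 := h2.mul_pow (p ^ k)
    rw [← h1, ha, hb, one_mul] at h4
    exact h4.symm
  have h5 := h.hK (p := p) _ k h3 ((QuotientGroup.eq_one_iff _).2 hz)
  rw [h1, h5, mul_one]


end

section mat
variable {F : Type*} [Field F] [Finite F] {ι : Type} [Fintype ι] [DecidableEq ι] {Q : QuadraticForm F (ι → F)}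
  {e f : Fin 3 → (ι → F)} {u : ι → F}

theorem Gd.hF (h : Gd Q e f u) : (∃ a : F, a ≠ 0 ∧ a ≠ 1) ∨ finrank F (ι → F) ≠ 4 := Or.inr (by have := h.h5; omega)

/-- identification with the Eichler group -/
noncomputable def Gd.Th (h : Gd Q e f u) : Cfsg.Omega F ⇑Q ≃* EG Q :=
  (omegaIso Q).trans (MulEquiv.subgroupCongr (h.hs.commutator_eq h.nd h.hF))

theorem Gd.Th_apply (h : Gd Q e f u) (g : Cfsg.Omega F ⇑Q) (x : ι → F) :
    (h.Th g).1.1 x = ((g.1 : GL ι F) : Matrix ι ι F) *ᵥ x := rfl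

/-- the identification of the simple groups -/
noncomputable def Gd.ThP (h : Gd Q e f u) : Cfsg.POmega F ⇑Q ≃* PG Q := quotCenterCongr h.Th

theorem Gd.ThP_mk (h : Gd Q e f u) (g : Cfsg.Omega F ⇑Q) : h.ThP (QuotientGroup.mk g) = pi Q (h.Th g) := rfl


end mat

section
variable {F V : Type*} [Field F] [Finite F] [AddCommGroup V] [Module F V] [FiniteDimensional F V] {Q : QuadraticForm F V}

local notation "B" => QuadraticMap.polar Q

variable {e f : Fin 3 → V} {u : V}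

/-- a semisimilarity acting trivially is a scalar -/
theorem Gd.scalar_of (h : Gd Q e f u) (s : SS Q) (hs : ∀ g : EG Q, pi Q (s.aut g) = pi Q g) :
    s.σ = 1 ∧ ∃ a : F, a ≠ 0 ∧ ∀ v, s.S v = a • v := by
  obtain ⟨p, hp⟩ := CharP.exists F
  haveI : Fact p.Prime := ⟨CharP.char_is_prime F p⟩
  -- `S` commutes with Eichler elements
  have h1 : ∀ v w, Q v = 0 → B v w = 0 → s.aut (E Q v w) = E Q v w := by
    intro v w hv hw
    refine h.pi_inj (p := p) 1 ?_ ?_ (hs _)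
    · rw [pow_one, ← map_pow, E_pow_p hv hw, map_one]
    · rw [pow_one, E_pow_p hv hw]
  have h2 : ∀ g : EG Q, s.aut g = g := by
    have main : ∀ (x : OGrp Q), x ∈ Subgroup.closure {g | ∃ v w, ∃ (hv : Q v = 0) (hw : QuadraticMap.polar Q v w = 0), g = oEich Q v w hv hw} →
        ∃ hx : x ∈ EG Q, s.aut ⟨x, hx⟩ = ⟨x, hx⟩ := by
      intro x hx'
      induction hx' using Subgroup.closure_induction with
      | mem x hx =>
        obtain ⟨v, w, hv, hw, rfl⟩ := hx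
        refine ⟨oEich_mem v w hv hw, ?_⟩
        rw [← E_def hv hw]
        exact h1 v w hv hw
      | one => exact ⟨one_mem _, map_one s.aut⟩
      | mul x y _ _ hx hy =>
        obtain ⟨a1, a1'⟩ := hx
        obtain ⟨a2, a2'⟩ := hy
        refine ⟨mul_mem a1 a2, ?_⟩
        have : (⟨x * y, mul_mem a1 a2⟩ : EG Q) = ⟨x, a1⟩ * ⟨y, a2⟩ := rfl
        rw [this, map_mul, a1', a2']
      | inv x _ hx =>
        obtain ⟨a1, a1'⟩ := hx
        refine ⟨inv_mem a1, ?_⟩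
        have : (⟨x⁻¹, inv_mem a1⟩ : EG Q) = ⟨x, a1⟩⁻¹ := rfl
        rw [this, map_inv, a1']
    rintro ⟨x, hx⟩
    obtain ⟨_, hm⟩ := main x hx
    exact hm
  have h3 : ∀ (g : EG Q) v, s.S (g.1.1 v) = g.1.1 (s.S v) := by
    intro g v
    rw [← s.aut_S, h2]
  have hxy := h.hs.h1
  -- `S e₀` is a multiple of `e₀`
  have hB0 : ∀ w, B (e 0) w = 0 → B (e 0) (s.S (e 0)) • w = (B w (s.S (e 0)) + Q w * B (e 0) (s.S (e 0))) • e 0 := by
    intro w hw
    have h4 := h3 (E Q (e 0) w) (e 0)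
    have h5 : (E Q (e 0) w).1.1 (e 0) = e 0 := by
      rw [E_apply hxy.1 hw, hxy.ee, bsymm w, hw]; simp
    rw [h5, E_apply hxy.1 hw] at h4
    have h6 : B (e 0) (s.S (e 0)) • w - (B w (s.S (e 0)) + Q w * B (e 0) (s.S (e 0))) • e 0 = 0 := by
      have h7 : s.S (e 0) + B (e 0) (s.S (e 0)) • w - B w (s.S (e 0)) • e 0 - (Q w * B (e 0) (s.S (e 0))) • e 0 - s.S (e 0) = 0 := by
        rw [← h4, sub_self]
      rw [← h7]; module
    exact sub_eq_zero.1 h6
  have hBe : B (e 0) (s.S (e 0)) = 0 := by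
    have h4 := hB0 (e 1) (h.fr.ee 0 1)
    have h5 := congrArg (fun z => B (f 1) z) h4
    simp only [QuadraticMap.polar_smul_right] at h5
    rw [h.fr.fe 1, h.fr.fe' 1 0 (by decide)] at h5
    simpa using h5
  have hBw : ∀ w, B (e 0) w = 0 → B w (s.S (e 0)) = 0 := by
    intro w hw
    have h4 := hB0 w hw
    rw [hBe, zero_smul, mul_zero, add_zero] at h4
    exact (smul_eq_zero.1 h4.symm).resolve_right hxy.ne
  obtain ⟨a, ha⟩ : ∃ a : F, s.S (e 0) = a • e 0 := by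
    by_contra hcon
    push Not at hcon
    obtain ⟨x, hx1, hx2⟩ := dual_pair h.nd hcon
    have h5 := hBw x hx1
    rw [bsymm, hx2] at h5
    exact one_ne_zero h5
  have ha0 : a ≠ 0 := by
    rintro rfl
    rw [zero_smul] at ha
    exact hxy.ne ((AddEquiv.map_eq_zero_iff s.S).1 ha)
  -- all singular vectors
  have hsing : ∀ v, Q v = 0 → s.S v = a • v := by
    intro v hv
    by_cases hv0 : v = 0
    · rw [hv0, map_zero, smul_zero]
    · obtain ⟨g, hg, hgv⟩ := h.hs.trans h.nd (e 0) v hxy.ne hv0 (by rw [hxy.1, hv])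
      have h4 := h3 ⟨g, hg⟩ (e 0)
      have h5 : (⟨g, hg⟩ : EG Q).1.1 (e 0) = v := hgv
      rw [h5, ha, map_smul, h5] at h4
      exact h4
  refine ⟨?_, a, ha0, ?_⟩
  · ext c
    have h4 := hsing (c • e 0) (by rw [qsmul, hxy.1, mul_zero])
    rw [s.smul, hsing _ hxy.1, smul_smul, smul_smul, ← sub_eq_zero, ← sub_smul] at h4
    have h5 := (smul_eq_zero.1 h4).resolve_right hxy.ne
    have h6 : a * (s.σ c - c) = 0 := by linear_combination h5
    exact sub_eq_zero.1 ((mul_eq_zero.1 h6).resolve_left ha0)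
  · intro v
    obtain ⟨b, c, t, ht, hv, -⟩ := sing_decomp hxy v
    rw [hv, map_add, map_add, hsing _ (by rw [qsmul, hxy.1, mul_zero]), hsing _ (by rw [qsmul, hxy.2.1, mul_zero]), hsing t ht, smul_add, smul_add]


end

section
variable {F : Type*} [Field F]

theorem gd_qPlus {m : ℕ} (hm : 4 ≤ m) : ∃ (e f : Fin 3 → (Fin m ⊕ Fin m → F)) (u : _), Gd (qPlus m F) e f u := by
  refine ⟨_, _, _, nondeg_qPlus m, fr_qPlus (k := 3) (by omega), ?_⟩
  simp; omega

end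

end CfsgLib.AutO27

namespace CfsgLib.RhoO27

open Cfsg.Agent.H22 CfsgLib.Semi27 CfsgLib.AutO27 Matrix Module

variable {F : Type*} [Field F] [Finite F] {ι : Type} [Fintype ι] [DecidableEq ι] {Q : QuadraticForm F (ι → F)}
  {e f : Fin 3 → (ι → F)} {u : ι → F}

theorem Th_cjO' (h : Gd Q e f u) (x : SP Q) (s : Cfsg.Omega F ⇑Q) : h.Th (cjO Q x s) = (ssOf x).aut (h.Th s) := by
  apply g_ext
  intro v
  obtain ⟨y, rfl⟩ := (ssOf x).S.surjective v
  rw [(ssOf x).aut_S, h.Th_apply, h.Th_apply]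
  exact cjG_act x.1 _ y

theorem R_ker' (h : Gd Q e f u) (x : SP Q) : R Q x = 1 ↔ x.1.right = 1 ∧ ∃ a : Fˣ, x.1.left = scal a := by
  constructor
  · intro hx
    have h1 : ∀ g : EG Q, pi Q ((ssOf x).aut g) = pi Q g := by
      intro g
      obtain ⟨s, rfl⟩ := h.Th.surjective g
      rw [← Th_cjO', ← h.ThP_mk, ← h.ThP_mk, ← R_mk, hx]
      rfl
    obtain ⟨h2, a, ha0, ha⟩ := h.scalar_of (ssOf x) h1
    have h2' : x.1.right = 1 := h2
    refine ⟨h2', Units.mk0 a ha0, ?_⟩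
    apply Units.ext
    apply eq_of_mulVec_single
    intro i
    have h3 : act x.1 (Pi.single i 1) = a • Pi.single i 1 := ha _
    unfold act at h3
    rw [comp_single] at h3
    rw [h3, scal_mulVec]; rfl
  · rintro ⟨h1, a, h2⟩
    apply MulEquiv.ext
    intro y
    induction y using QuotientGroup.induction_on with
    | H s =>
      rw [R_mk]
      show _ = QuotientGroup.mk s
      congr 1
      apply Subtype.ext
      apply Subtype.ext
      rw [cjO_coe, h1, h2, scal_comm]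
      have : gm (1 : F ≃+* F) ((s : Cfsg.isometryGroup F ⇑Q) : GL ι F) = ((s : Cfsg.isometryGroup F ⇑Q) : GL ι F) := Units.ext (by ext i j; rfl)
      rw [this, mul_inv_cancel_right]

theorem R_eq_iff' (h : Gd Q e f u) (x y : SP Q) : R Q x = R Q y ↔ x.1.right = y.1.right ∧ ∃ a : Fˣ, x.1.left = scal a * y.1.left := by
  rw [← mul_inv_eq_one, ← map_inv, ← map_mul, R_ker' h]
  have h1 : (x * y⁻¹ : SP Q).1.right = x.1.right * y.1.right⁻¹ := rfl
  have h2 : (x * y⁻¹ : SP Q).1.left = x.1.left * gm x.1.right (gm y.1.right⁻¹ y.1.left⁻¹) := rfl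
  rw [h1, h2, mul_inv_eq_one]
  constructor
  · rintro ⟨e1, a, e2⟩
    refine ⟨e1, a, ?_⟩
    rw [e1, gm_gm_inv] at e2
    exact mul_inv_eq_iff_eq_mul.1 e2
  · rintro ⟨e1, a, e2⟩
    refine ⟨e1, a, ?_⟩
    rw [e1, gm_gm_inv, e2, mul_inv_cancel_right]

theorem mem_inn' (h : Gd Q e f u) (x : SP Q) : R Q x ∈ Cfsg.Inn (Cfsg.POmega F ⇑Q) ↔
    x.1.right = 1 ∧ ∃ (a : Fˣ) (s : Cfsg.Omega F ⇑Q), x.1.left = scal a * ((s : Cfsg.isometryGroup F ⇑Q) : GL ι F) := by
  constructor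
  · rintro ⟨y, hy⟩
    obtain ⟨s, rfl⟩ := QuotientGroup.mk_surjective y
    rw [conj_mk] at hy
    obtain ⟨h1, a, h2⟩ := (R_eq_iff' h x (jI Q s.1)).1 hy.symm
    exact ⟨h1, a, s, h2⟩
  · rintro ⟨h1, a, s, h2⟩
    refine ⟨QuotientGroup.mk s, ?_⟩
    rw [conj_mk]
    exact ((R_eq_iff' h x (jI Q s.1)).2 ⟨h1, a, h2⟩).symm


section
variable (Γ : Subgroup (GL ι F)) (hΓ : Γ ≤ GOs Q)

theorem rho_ker' (h : Gd Q e f u) (g : Γ) : rho Γ hΓ g = 1 ↔ ∃ a : Fˣ, (g : GL ι F) = scal a := by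
  rw [rho_def, R_ker' h]
  exact ⟨fun h => h.2, fun h => ⟨rfl, h⟩⟩


end

theorem ker_scalars' (Γ : Subgroup (GL ι F)) (hΓ : Γ ≤ GOs Q) (h : Gd Q e f u) : (rho Γ hΓ).ker = (Cfsg.Geo.scalars ι F).subgroupOf Γ := by
  ext g
  rw [MonoidHom.mem_ker, Subgroup.mem_subgroupOf, rho_ker' Γ hΓ h]
  constructor
  · rintro ⟨a, ha⟩
    exact ⟨a, ha.symm⟩
  · rintro ⟨a, ha⟩
    exact ⟨a, ha.symm⟩

theorem range_equiv' (Γ : Subgroup (GL ι F)) (hΓ : Γ ≤ GOs Q) (h : Gd Q e f u) : Nonempty (↥(rho Γ hΓ).range ≃* Cfsg.projQuot Γ) :=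
  ⟨(QuotientGroup.quotientKerEquivRange (rho Γ hΓ)).symm.trans (QuotientGroup.quotientMulEquivOfEq (ker_scalars' Γ hΓ h))⟩


end CfsgLib.RhoO27
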