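import Cfsg.Agent.LibSB8
import Cfsg.Agent.LibRhoO27d

set_option autoImplicit false

/-! Outer automorphisms of B2 in characteristic two. -/

namespace Cfsg.Agent.H22.Cv

open CfsgLib.Chev Cfsg.Lie CfsgLib.SA

theorem map_inn {G H : Type*} [Group G] [Group H] (e : G ≃* H) : (Cfsg.Inn G).map (MulAut.congr e).toMonoidHom = Cfsg.Inn H := by
  ext x
  constructor
  · rintro ⟨y, ⟨g, rfl⟩, rfl⟩
    refine ⟨e g, ?_⟩
    apply MulEquiv.ext
    intro z
    show e g * z * (e g)⁻¹ = e (g * e.symm z * g⁻¹)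
    simp
  · rintro ⟨h, rfl⟩
    refine ⟨MulAut.conj (e.symm h), ⟨_, rfl⟩, ?_⟩
    apply MulEquiv.ext
    intro z
    show e (e.symm h * e.symm z * (e.symm h)⁻¹) = h * z * h⁻¹
    simp

/-- `Out` is functorial -/
noncomputable def outCongr {G H : Type*} [Group G] [Group H] (e : G ≃* H) : Cfsg.Out G ≃* Cfsg.Out H :=
  QuotientGroup.congr _ _ (MulAut.congr e) (map_inn e)

theorem outCongr_mk {G H : Type*} [Group G] [Group H] (e : G ≃* H) (a : MulAut G) :
    outCongr e (QuotientGroup.mk a) = QuotientGroup.mk (MulAut.congr e a) := rfl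

theorem lam_B2 : ∀ i : Fin 2, gdB2.lam (tB2.sim i) = if lG2 (Equiv.swap (0 : Fin 2) 1 i) && !lG2 i then 2 else 1 := by decide +kernel

theorem isGr_B2 {F : Type*} [Field F] [Finite F] [CharP F 2] : ∃ σ : chevB2.group F ≃* chevB2.group F, good3_B2.IsGr σ (Equiv.swap 0 1 : Equiv.Perm (Fin 2)) := by
  have : Fact (Nat.Prime 2) := ⟨Nat.prime_two⟩
  exact good3_B2.isGr_p tr_B2 gdB2_ok chkInv_B2 chkLp_B2 eps_B2 chkS_B2 pos_B2 (ρ := (Equiv.swap 0 1 : Equiv.Perm (Fin 2))) swap2 (fun i => by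
    have h1 := lg_B2 i
    have h2 := lg_B2 (Equiv.swap (0 : Fin 2) 1 i)
    have h3 := lam_B2 i
    rw [← h1, ← h2] at h3
    exact h3)

theorem out_B2 {F : Type*} [Field F] [Fintype F] [CharP F 2] (f : ℕ) (hf : 1 ≤ f) (hF : Fintype.card F = 2 ^ f) :
    Nat.card (Cfsg.Out ↥(chevB2.group F)) = 2 * f := by
  have : Fact (Nat.Prime 2) := ⟨Nat.prime_two⟩
  rw [good3_B2.out_card sac_B2 (by decide), (gal_card 2 f (by rw [Nat.card_eq_fintype_card, hF])).2]
  have h1 := good3_B2.card_quot (F := F)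
  have h2 := good3_B2.card_H_list (F := F) smith_B2 rfl
  have h3 : ((([-1, 2] : List ℤ).map fun z => Nat.gcd z.natAbs (Fintype.card F - 1)).prod) = 1 := by
    have h7 : Nat.gcd 2 (Fintype.card F - 1) = 1 := by
      have h9 : Nat.Coprime 2 (Fintype.card F - 1) := by
        rw [Nat.coprime_two_left, hF]
        have : Even (2 ^ f) := (Nat.even_pow.2 ⟨by decide, by omega⟩)
        have h8 : 1 ≤ 2 ^ f := Nat.one_le_two_pow
        exact Nat.Even.sub_odd h8 this (by decide)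
      exact h9
    simpa using h7
  rw [h3, one_mul] at h2
  have h4 : (Fintype.card F - 1) ^ chevB2.rank = (Fintype.card F - 1) ^ tB2.l := congrArg _ good3_B2.hl
  rw [h4, ← h1] at h2
  have h5 : 0 < Nat.card (chevB2.diagonalSubgroup F) := Nat.card_pos
  have h6 : Nat.card ((Fin tB2.l → Fˣ) ⧸ Good3.KH chevB2 tB2 F) = 1 :=
    Nat.eq_of_mul_eq_mul_right h5 (by rw [one_mul]; exact h2.symm)
  rw [h6, one_mul]
  obtain ⟨σ, hσ⟩ := isGr_B2 (F := F)
  rw [good3_B2.card_R_two (s := (Equiv.swap 0 1 : Equiv.Perm (Fin 2))) (by show (Equiv.swap 0 1 : Equiv.Perm (Fin 2)) ≠ 1; decide) hσ]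
  intro ρ γ hγ
  rcases perm2 ρ with h | h
  · left
    apply Equiv.ext
    show ∀ i : Fin 2, _
    rw [Fin.forall_fin_two]; exact h
  · right
    apply Equiv.ext
    show ∀ i : Fin 2, _
    rw [Fin.forall_fin_two]; exact h

/-- the Frobenius as a ring equivalence -/
noncomputable def frb (F : Type*) [Field F] [Finite F] [CharP F 2] : F ≃+* F :=
  RingEquiv.ofBijective (frobenius F 2) ⟨frobenius_inj F 2, Finite.injective_iff_surjective.1 (frobenius_inj F 2)⟩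

theorem frb_apply {F : Type*} [Field F] [Finite F] [CharP F 2] (t : F) : frb F t = t ^ 2 := rfl

theorem frb_pow {F : Type*} [Field F] [Finite F] [CharP F 2] (j : ℕ) (t : F) : (frb F ^ j) t = t ^ (2 ^ j) := by
  induction j generalizing t with
  | zero => simp
  | succ j ih =>
    rw [pow_succ, RingAut.mul_apply, frb_apply, ih, ← pow_mul, pow_succ 2 j, mul_comm]

theorem frb_order {F : Type*} [Field F] [Fintype F] [CharP F 2] {f : ℕ} (hF : Fintype.card F = 2 ^ f) {j : ℕ} (hj0 : j ≠ 0)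
    (h : frb F ^ j = 1) : f ≤ j := by
  classical
  have h3 : ∀ t : F, t ^ (2 ^ j) = t := by
    intro t
    rw [← frb_pow, h]; rfl
  have h4 : Fintype.card F ≤ 2 ^ j := by
    have h6 : (Polynomial.X ^ (2 ^ j) - Polynomial.X : Polynomial F) ≠ 0 :=
      FiniteField.X_pow_card_sub_X_ne_zero F (Nat.one_lt_two_pow hj0)
    have h7 : (Polynomial.X ^ (2 ^ j) - Polynomial.X : Polynomial F).natDegree = 2 ^ j :=
      FiniteField.X_pow_card_sub_X_natDegree_eq F (Nat.one_lt_two_pow hj0)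
    have h8 : (Finset.univ : Finset F) ⊆ (Polynomial.X ^ (2 ^ j) - Polynomial.X : Polynomial F).roots.toFinset := by
      intro t _
      rw [Multiset.mem_toFinset, Polynomial.mem_roots h6]
      simp [Polynomial.IsRoot, h3 t]
    calc Fintype.card F = (Finset.univ : Finset F).card := rfl
      _ ≤ _ := Finset.card_le_card h8
      _ ≤ _ := Multiset.toFinset_card_le _
      _ ≤ _ := Polynomial.card_roots' _
      _ = 2 ^ j := h7
  rw [hF] at h4
  exact (Nat.pow_le_pow_iff_right (by norm_num : 1 < 2)).1 h4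

section Gen

variable {D : ChevalleyDatum} {T : Tb} (g : Good3 D T) {F : Type*} [Field F]

theorem gr_sq {γ : D.group F ≃* D.group F} {ρ : Equiv.Perm (Fin T.l)} (h : g.IsGr γ ρ) (hρ : ∀ i, ρ (ρ i) = i) {p : ℕ}
    (hE : ∀ i, Good3.saE T F ρ i * Good3.saE T F ρ (ρ i) = p) {σ : F ≃+* F} (hσ : ∀ t, σ t = t ^ p) : γ.trans γ = g.saF σ := by
  apply g.sa_ext
  · intro i hi' t
    rw [ex_trans _ _ (g.X_mem_G _ _), g.ex_saF_X]
    have e1 := h.hx ⟨i, hi'⟩ t
    have e2 := h.hx (ρ ⟨i, hi'⟩) (t ^ Good3.saE T F ρ ⟨i, hi'⟩)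
    rw [← pow_mul, hE, hρ, ← hσ] at e2
    rw [← e2]
    congr 1
  · intro i hi' t
    rw [ex_trans _ _ (g.X_mem_G _ _), g.ex_saF_X]
    have e1 := h.hy ⟨i, hi'⟩ t
    have e2 := h.hy (ρ ⟨i, hi'⟩) (t ^ Good3.saE T F ρ ⟨i, hi'⟩)
    rw [← pow_mul, hE, hρ, ← hσ] at e2
    rw [← e2]
    congr 1

theorem saD_one : g.saD (fun _ => (1 : Fˣ)) = MulEquiv.refl (D.group F) := by
  apply MulEquiv.ext
  intro x
  have e := g.ex_saD (fun _ => (1 : Fˣ)) x.2
  rw [ex_coe] at e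
  apply Subtype.ext
  rw [e]
  have e2 : tor D T (fun _ => (1 : Fˣ)) = 1 := by
    have := Good3.sa_tor_mul (D := D) (T := T) (F := F) (fun _ => (1 : Fˣ)) (fun _ => 1)
    simp only [mul_one] at this
    exact mul_eq_left.1 this
  rw [e2]; simp

theorem uniq2 [Finite F] (hl : 0 < T.l) {γ γ' : D.group F ≃* D.group F} {ρ ρ' : Equiv.Perm (Fin T.l)} (h : g.IsGr γ ρ) (h' : g.IsGr γ' ρ')
    {τ τ' : F ≃+* F} {c : D.group F} (he : (g.saF τ).trans γ = ((g.saF τ').trans γ').trans (inn c)) : ρ = ρ' ∧ τ = τ' := by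
  have h1 := g.sa_uniq hl h h' (b := fun _ => 1) (b' := fun _ => 1) (τ := τ) (τ' := τ') (c := c) (by
    rw [saD_one]
    exact he)
  exact ⟨h1.1, h1.2.1⟩

theorem saF_one : g.saF (1 : F ≃+* F) = MulEquiv.refl (D.group F) := map_one (g.fH (F := F))

theorem ord_gr [Finite F] (hl : 0 < T.l) {γ : D.group F ≃* D.group F} {ρ : Equiv.Perm (Fin T.l)} (h : g.IsGr γ ρ) (hρ : ρ ≠ 1)
    {σ : F ≃+* F} (hsq : γ.trans γ = g.saF σ) {n : ℕ} (hn : ∀ j : ℕ, j ≠ 0 → σ ^ j = 1 → n ≤ j) {k : ℕ} (hk0 : k ≠ 0)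
    (hk : (QuotientGroup.mk (γ : MulAut ↥(D.group F)) : Cfsg.Out ↥(D.group F)) ^ k = 1) : 2 * n ≤ k := by
  have hfr : ∀ j : ℕ, (γ : MulAut ↥(D.group F)) ^ (2 * j) = (g.saF (σ ^ j) : MulAut ↥(D.group F)) := by
    intro j
    rw [pow_mul]
    have e1 : (γ : MulAut ↥(D.group F)) ^ 2 = (g.saF σ : MulAut ↥(D.group F)) := by
      rw [pow_two]; exact hsq
    rw [e1]
    exact (map_pow (g.fH (F := F)) σ j).symm
  have h1 : g.IsGr (MulEquiv.refl (D.group F)) 1 := Good3.IsGr.one_iff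
  have hk2 : (QuotientGroup.mk ((1 : MulAut ↥(D.group F))) : Cfsg.Out ↥(D.group F)) = QuotientGroup.mk ((γ : MulAut ↥(D.group F)) ^ k) := by
    rw [QuotientGroup.mk_pow, hk]; rfl
  obtain ⟨c, hc⟩ := (out_eq_iff _ _).1 hk2
  rcases Nat.even_or_odd' k with ⟨j, hj | hj⟩
  · rw [hj, hfr] at hc
    have e3 : (g.saF (σ ^ j)).trans (MulEquiv.refl _) = ((g.saF (1 : F ≃+* F)).trans (MulEquiv.refl _)).trans (inn c) := by
      rw [saF_one]
      exact hc
    have h2 := (uniq2 g hl h1 h1 e3).2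
    have := hn j (by omega) h2
    omega
  · exfalso
    rw [hj, pow_succ', hfr] at hc
    have e3 : (g.saF (σ ^ j)).trans γ = ((g.saF (1 : F ≃+* F)).trans (MulEquiv.refl _)).trans (inn c) := by
      rw [saF_one]
      exact hc
    exact hρ (uniq2 g hl h h1 e3).1

end Gen

theorem saE_B2 {F : Type*} [Field F] [CharP F 2] : ∀ i : Fin tB2.l,
    Good3.saE tB2 F (Equiv.swap (0 : Fin 2) 1 : Equiv.Perm (Fin 2)) i *
    Good3.saE tB2 F (Equiv.swap (0 : Fin 2) 1 : Equiv.Perm (Fin 2)) ((Equiv.swap (0 : Fin 2) 1 : Equiv.Perm (Fin 2)) i) = 2 := by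
  show ∀ i : Fin 2, _
  have h2 : ringChar F = 2 := ringChar.eq_iff.2 inferInstance
  have h3 : ∀ i : Fin 2, (tB2.lng (tB2.sim ((Equiv.swap (0 : Fin 2) 1 : Equiv.Perm (Fin 2)) i)) && !tB2.lng (tB2.sim i)) = decide (i = 0) := by
    intro i
    have h1 : ∀ i : Fin 2, tB2.lng (tB2.sim i) = lG2 i := lg_B2
    rw [h1, h1]
    revert i
    decide
  have h4 : ∀ i : Fin 2, Good3.saE tB2 F (Equiv.swap (0 : Fin 2) 1 : Equiv.Perm (Fin 2)) i = if i = 0 then 2 else 1 := by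
    intro i
    have h5 := h3 i
    show (if tB2.lng (tB2.sim ((Equiv.swap (0 : Fin 2) 1 : Equiv.Perm (Fin 2)) i)) && !tB2.lng (tB2.sim i) then ringChar F else 1) = _
    rw [h2]
    by_cases h6 : i = 0
    · rw [if_pos h6, if_pos (by rw [h5]; simpa using h6)]
    · rw [if_neg h6, if_neg (by rw [h5]; simpa using h6)]
  intro i
  rw [h4, h4]
  revert i
  decide

theorem cyc_B2 {F : Type*} [Field F] [Fintype F] [CharP F 2] (f : ℕ) (hf : 1 ≤ f) (hF : Fintype.card F = 2 ^ f) :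
    IsCyclic (Cfsg.Out ↥(chevB2.group F)) := by
  have hcard := out_B2 f hf hF
  obtain ⟨γ, hγ⟩ := isGr_B2 (F := F)
  have hs : ∀ i : Fin 2, (Equiv.swap (0 : Fin 2) 1 : Equiv.Perm (Fin 2)) ((Equiv.swap (0 : Fin 2) 1 : Equiv.Perm (Fin 2)) i) = i := by decide
  have hsq := gr_sq good3_B2 hγ (p := 2) hs saE_B2 (σ := frb F) (fun t => rfl)
  haveI : Finite (Cfsg.Out ↥(chevB2.group F)) := Nat.finite_of_card_ne_zero (by rw [hcard]; omega)
  have hord : orderOf (QuotientGroup.mk (γ : MulAut ↥(chevB2.group F)) : Cfsg.Out ↥(chevB2.group F)) = 2 * f := by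
    apply le_antisymm
    · rw [← hcard]; exact orderOf_le_card
    · exact ord_gr good3_B2 (by decide) hγ (by show (Equiv.swap 0 1 : Equiv.Perm (Fin 2)) ≠ 1; decide) hsq
        (fun j hj h => frb_order hF hj h) (orderOf_pos _).ne' (pow_orderOf_eq_one _)
  exact isCyclic_of_orderOf_eq_card _ (by rw [hord, hcard])

end Cfsg.Agent.H22.Cv
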