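import Cfsg.Agent.LibH22SpDec
import Cfsg.Agent.LibH22OOrd3

set_option autoImplicit false

/-! Permutation modules and classical groups (seat helper22). -/

namespace Cfsg.Agent.H22

open Module

section
variable {F : Type*} [Field F] {N : ℕ}

/-- sum zero and vanishing coordinate `a` -/
def WP (F : Type*) [Field F] {N : ℕ} (a : Fin N) : Submodule F (Fin N → F) where
  carrier := {v | ∑ i, v i = 0 ∧ v a = 0}
  add_mem' := by
    rintro u v ⟨h1, h2⟩ ⟨h3, h4⟩
    exact ⟨by simp only [Pi.add_apply, Finset.sum_add_distrib, h1, h3, add_zero], by rw [Pi.add_apply, h2, h4, add_zero]⟩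
  zero_mem' := ⟨by simp, rfl⟩
  smul_mem' := by
    rintro c v ⟨h1, h2⟩
    exact ⟨by simp only [Pi.smul_apply, ← Finset.smul_sum, h1, smul_zero], by rw [Pi.smul_apply, h2, smul_zero]⟩

lemma mem_WP {a : Fin N} {v : Fin N → F} : v ∈ WP F a ↔ ∑ i, v i = 0 ∧ v a = 0 := Iff.rfl

lemma perm_mem (hN : (N : F) = 0) (a : Fin N) (π : Equiv.Perm (Fin N)) (v : WP F a) :
    (fun i => v.1 (π.symm i) - v.1 (π.symm a)) ∈ WP F a := by
  rw [mem_WP]
  refine ⟨?_, by ring⟩
  rw [Finset.sum_sub_distrib, Finset.sum_const, Finset.card_univ, Fintype.card_fin, nsmul_eq_mul, hN, zero_mul, sub_zero,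
    Equiv.sum_comp π.symm v.1]
  exact v.2.1

/-- the linear action -/
def permL (hN : (N : F) = 0) (a : Fin N) : Equiv.Perm (Fin N) →* Module.End F (WP F a) where
  toFun π := { toFun := fun v => ⟨_, perm_mem hN a π v⟩
               map_add' := fun u v => by
                 apply Subtype.ext; funext i
                 show (u.1 + v.1) (π.symm i) - (u.1 + v.1) (π.symm a) = (u.1 (π.symm i) - u.1 (π.symm a)) + (v.1 (π.symm i) - v.1 (π.symm a))
                 simp only [Pi.add_apply]; ring
               map_smul' := fun c v => by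
                 apply Subtype.ext; funext i
                 show (c • v.1) (π.symm i) - (c • v.1) (π.symm a) = c * (v.1 (π.symm i) - v.1 (π.symm a))
                 simp only [Pi.smul_apply, smul_eq_mul]; ring }
  map_one' := by
    apply LinearMap.ext; intro v; apply Subtype.ext; funext i
    show v.1 i - v.1 a = v.1 i
    rw [v.2.2, sub_zero]
  map_mul' π σ := by
    apply LinearMap.ext; intro v; apply Subtype.ext; funext i
    show v.1 ((π * σ).symm i) - v.1 ((π * σ).symm a) = (v.1 (σ.symm (π.symm i)) - v.1 (σ.symm a)) - (v.1 (σ.symm (π.symm a)) - v.1 (σ.symm a))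
    have h : ∀ j, (π * σ).symm j = σ.symm (π.symm j) := fun j => rfl
    rw [h, h]; ring

/-- the action by linear equivalences -/
noncomputable def permE (hN : (N : F) = 0) (a : Fin N) : Equiv.Perm (Fin N) →* (WP F a ≃ₗ[F] WP F a) :=
  (LinearMap.GeneralLinearGroup.generalLinearEquiv F (WP F a)).toMonoidHom.comp (permL hN a).toHomUnits

lemma permE_apply (hN : (N : F) = 0) (a : Fin N) (π : Equiv.Perm (Fin N)) (v : WP F a) (i : Fin N) :
    (permE hN a π v).1 i = v.1 (π.symm i) - v.1 (π.symm a) := rfl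

/-- difference of unit vectors -/
lemma diff_mem {a i j : Fin N} (hi : i ≠ a) (hj : j ≠ a) : (Pi.single i 1 - Pi.single j 1 : Fin N → F) ∈ WP F a := by
  rw [mem_WP]
  constructor
  · simp only [Pi.sub_apply, Finset.sum_sub_distrib]
    rw [Finset.sum_pi_single', Finset.sum_pi_single', if_pos (Finset.mem_univ _), if_pos (Finset.mem_univ _), sub_self]
  · rw [Pi.sub_apply, Pi.single_eq_of_ne hi.symm, Pi.single_eq_of_ne hj.symm, sub_zero]

lemma permE_injective (hN : (N : F) = 0) (a : Fin N) (h5 : 5 ≤ N) : Function.Injective (permE hN a) := by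
  classical
  rw [injective_iff_map_eq_one]
  intro π hπ
  by_contra hne
  obtain ⟨i, hia, hi⟩ : ∃ i, i ≠ a ∧ π i ≠ i := by
    by_contra hcon
    push Not at hcon
    apply hne
    ext k
    by_cases hk : k = a
    · subst hk
      by_contra h
      have h1 : π k ≠ k := fun h' => h (by rw [h']; rfl)
      exact h1 (π.injective (hcon (π k) h1))
    · rw [hcon k hk]; rfl
  obtain ⟨j, hj⟩ : ∃ j : Fin N, j ∉ ({i, a, π i} : Finset (Fin N)) := by
    by_contra hcon
    push Not at hcon
    have h1 : (Finset.univ : Finset (Fin N)) ⊆ {i, a, π i} := fun x _ => hcon x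
    have h2 := Finset.card_le_card h1
    rw [Finset.card_univ, Fintype.card_fin] at h2
    have h3 : ({i, a, π i} : Finset (Fin N)).card ≤ 3 := Finset.card_le_three
    omega
  obtain ⟨l, hl⟩ : ∃ l : Fin N, l ∉ ({π i, π j, i, j} : Finset (Fin N)) := by
    by_contra hcon
    push Not at hcon
    have h1 : (Finset.univ : Finset (Fin N)) ⊆ {π i, π j, i, j} := fun x _ => hcon x
    have h2 := Finset.card_le_card h1
    rw [Finset.card_univ, Fintype.card_fin] at h2
    have h3 : ({π i, π j, i, j} : Finset (Fin N)).card ≤ 4 := Finset.card_le_four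
    omega
  simp only [Finset.mem_insert, Finset.mem_singleton, not_or] at hj hl
  obtain ⟨hji, hja, hjπ⟩ := hj
  obtain ⟨hl1, hl2, hl3, hl4⟩ := hl
  obtain ⟨v, hv⟩ : ∃ v : WP F a, v.1 = (Pi.single i 1 - Pi.single j 1 : Fin N → F) := ⟨⟨_, diff_mem hia hja⟩, rfl⟩
  have hev : ∀ k, v.1 (π.symm k) - v.1 (π.symm a) = v.1 k := by
    intro k
    rw [← permE_apply hN a π v k, hπ]; rfl
  have e1 := hev (π i)
  have e2 := hev l
  rw [Equiv.symm_apply_apply, hv] at e1
  rw [hv] at e2
  simp only [Pi.sub_apply] at e1 e2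
  rw [Pi.single_eq_same, Pi.single_eq_of_ne (Ne.symm hji), Pi.single_eq_of_ne hi, Pi.single_eq_of_ne (Ne.symm hjπ)] at e1
  rw [Pi.single_eq_of_ne (i' := l) hl3, Pi.single_eq_of_ne (i' := l) hl4, Pi.single_eq_of_ne (i' := π.symm l) (fun h => hl1 (by rw [← h, Equiv.apply_symm_apply])),
    Pi.single_eq_of_ne (i' := π.symm l) (fun h => hl2 (by rw [← h, Equiv.apply_symm_apply]))] at e2
  have : (1 : F) = 0 := by linear_combination e1 - e2
  exact one_ne_zero this

/-- the invariant form -/
def BW (F : Type*) [Field F] {N : ℕ} (a : Fin N) : LinearMap.BilinForm F (WP F a) :=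
  LinearMap.mk₂ F (fun u v => ∑ i, u.1 i * v.1 i)
    (fun u u' v => by
      show ∑ i, (u.1 + u'.1) i * v.1 i = _
      simp only [Pi.add_apply, add_mul, Finset.sum_add_distrib])
    (fun c u v => by
      show ∑ i, (c • u.1) i * v.1 i = c * _
      simp only [Pi.smul_apply, smul_eq_mul, Finset.mul_sum, mul_assoc])
    (fun u v v' => by
      show ∑ i, u.1 i * (v.1 + v'.1) i = _
      simp only [Pi.add_apply, mul_add, Finset.sum_add_distrib])
    (fun c u v => by
      show ∑ i, u.1 i * (c • v.1) i = c * _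
      simp only [Pi.smul_apply, smul_eq_mul, Finset.mul_sum]
      exact Finset.sum_congr rfl fun i _ => by ring)

lemma BW_apply (a : Fin N) (u v : WP F a) : BW F a u v = ∑ i, u.1 i * v.1 i := rfl

lemma BW_inv (hN : (N : F) = 0) (a : Fin N) (π : Equiv.Perm (Fin N)) (u v : WP F a) : BW F a (permE hN a π u) (permE hN a π v) = BW F a u v := by
  rw [BW_apply, BW_apply]
  simp only [permE_apply]
  have h1 : ∀ i, (u.1 (π.symm i) - u.1 (π.symm a)) * (v.1 (π.symm i) - v.1 (π.symm a)) =
      u.1 (π.symm i) * v.1 (π.symm i) - u.1 (π.symm a) * v.1 (π.symm i) - v.1 (π.symm a) * u.1 (π.symm i) + u.1 (π.symm a) * v.1 (π.symm a) := fun i => by ring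
  simp only [h1]
  rw [Finset.sum_add_distrib, Finset.sum_sub_distrib, Finset.sum_sub_distrib, ← Finset.mul_sum, ← Finset.mul_sum,
    Equiv.sum_comp π.symm v.1, Equiv.sum_comp π.symm u.1, u.2.1, v.2.1, Finset.sum_const, Finset.card_univ, Fintype.card_fin, nsmul_eq_mul, hN,
    Equiv.sum_comp π.symm (fun i => u.1 i * v.1 i)]
  ring

lemma BW_nondeg (hN : (N : F) = 0) (a : Fin N) (u : WP F a) (h : ∀ v, BW F a u v = 0) : u = 0 := by
  classical
  by_cases hb : ∃ b, b ≠ a
  · obtain ⟨b, hb⟩ := hb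
    have h1 : ∀ i, i ≠ a → u.1 i = u.1 b := by
      intro i hi
      have := h ⟨_, diff_mem hi hb⟩
      rw [BW_apply] at this
      simp only [Pi.sub_apply, mul_sub, Finset.sum_sub_distrib] at this
      rw [Finset.sum_eq_single i, Finset.sum_eq_single b, Pi.single_eq_same, Pi.single_eq_same, mul_one, mul_one] at this
      · exact sub_eq_zero.1 this
      · intro j _ hj; rw [Pi.single_eq_of_ne hj, mul_zero]
      · intro h; exact absurd (Finset.mem_univ _) h
      · intro j _ hj; rw [Pi.single_eq_of_ne hj, mul_zero]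
      · intro h; exact absurd (Finset.mem_univ _) h
    have h2 : ∑ i, (u.1 i - u.1 b) = - u.1 b := by
      rw [Finset.sum_eq_single a]
      · rw [u.2.2, zero_sub]
      · intro i _ hi; rw [h1 i hi, sub_self]
      · intro h; exact absurd (Finset.mem_univ _) h
    rw [Finset.sum_sub_distrib, u.2.1, Finset.sum_const, Finset.card_univ, Fintype.card_fin, nsmul_eq_mul, hN, zero_mul, sub_zero] at h2
    have h3 : u.1 b = 0 := neg_eq_zero.1 h2.symm
    apply Subtype.ext
    funext i
    by_cases hi : i = a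
    · rw [hi]; exact u.2.2
    · rw [h1 i hi, h3]; rfl
  · push Not at hb
    apply Subtype.ext
    funext i
    rw [hb i]; exact u.2.2

lemma BW_alt (h2 : (2 : F) = 0) (a : Fin N) : (BW F a).IsAlt := by
  intro u
  rw [BW_apply]
  have h1 : (∑ i, u.1 i) * (∑ i, u.1 i) = ∑ i, u.1 i * u.1 i := by
    haveI : CharP F 2 := CharTwo.of_one_ne_zero_of_two_eq_zero one_ne_zero h2
    have := sum_pow_char 2 (Finset.univ : Finset (Fin N)) u.1
    rw [pow_two] at this
    rw [this]
    exact Finset.sum_congr rfl fun i _ => pow_two _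
  rw [← h1, u.2.1, zero_mul]

lemma finrank_WP {a b : Fin N} (hab : b ≠ a) : finrank F (WP F a) + 2 = N := by
  classical
  obtain ⟨f, hf⟩ : ∃ f : (Fin N → F) →ₗ[F] F × F, ∀ v, f v = (∑ i, v i, v a) := by
    refine ⟨LinearMap.prod (∑ i, LinearMap.proj i) (LinearMap.proj a), fun v => ?_⟩
    rw [LinearMap.prod_apply]
    refine Prod.ext ?_ rfl
    show (∑ i, (LinearMap.proj i : (Fin N → F) →ₗ[F] F)) v = _
    rw [LinearMap.sum_apply]; rfl
  have hker : LinearMap.ker f = WP F a := by
    ext v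
    rw [LinearMap.mem_ker, hf, mem_WP]
    exact Prod.mk_eq_zero
  have hrange : LinearMap.range f = ⊤ := by
    rw [LinearMap.range_eq_top]
    rintro ⟨x, y⟩
    refine ⟨(x - y) • Pi.single b 1 + y • Pi.single a 1, ?_⟩
    rw [hf]
    refine Prod.ext ?_ ?_
    · simp only [Pi.add_apply, Pi.smul_apply, smul_eq_mul, Finset.sum_add_distrib, ← Finset.mul_sum]
      rw [Finset.sum_pi_single', Finset.sum_pi_single', if_pos (Finset.mem_univ _), if_pos (Finset.mem_univ _)]
      ring
    · show ((x - y) • (Pi.single b 1 : Fin N → F) + y • (Pi.single a 1 : Fin N → F)) a = y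
      rw [Pi.add_apply, Pi.smul_apply, Pi.smul_apply, Pi.single_eq_same, Pi.single_eq_of_ne hab.symm]
      simp
  have h1 := LinearMap.finrank_range_add_finrank_ker f
  rw [hker, hrange, finrank_top, Module.finrank_prod, finrank_self, finrank_fintype_fun_eq_card, Fintype.card_fin] at h1
  omega

theorem perm_sp (h2 : (2 : F) = 0) (k : ℕ) (hk : 2 ≤ k) : ∃ f : Equiv.Perm (Fin (2 * k + 2)) →* Matrix.symplecticGroup (Fin k) F, Function.Injective f := by
  have hN : ((2 * k + 2 : ℕ) : F) = 0 := by push_cast; linear_combination (k + 1 : F) * h2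
  obtain ⟨a, ha⟩ : ∃ a : Fin (2 * k + 2), a = 0 := ⟨_, rfl⟩
  obtain ⟨b, hb⟩ : ∃ b : Fin (2 * k + 2), b ≠ a := ⟨1, by rw [ha]; simp⟩
  have hr := finrank_WP (F := F) hb
  obtain ⟨φ, hφ⟩ := exists_sp_iso (BW F a) (BW_alt h2 a) (BW_nondeg hN a) (k := k) (by omega)
  obtain ⟨e1⟩ := isoCongr (f := fun x y => spB k F x y) (f₁ := fun x y => BW F a x y) φ hφ
  obtain ⟨e2⟩ := spIso k F
  obtain ⟨f0, hf0⟩ : ∃ f0 : Equiv.Perm (Fin (2 * k + 2)) →* Iso (fun x y => BW F a x y), Function.Injective f0 := by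
    refine ⟨(permE hN a).codRestrict _ (fun π => fun x y => BW_inv hN a π x y), ?_⟩
    intro x y h
    exact permE_injective hN a (by omega) (congrArg Subtype.val h)
  exact ⟨(e1.symm.trans e2.symm).toMonoidHom.comp f0, fun x y h => hf0 ((e1.symm.trans e2.symm).injective h)⟩

end

end Cfsg.Agent.H22
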