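import Cfsg.Statements.S0247
import Cfsg.Agent.LibH22Perm

set_option autoImplicit false
open Cfsg

namespace Cfsg.Agent.S0247

/-- Sp_4(2) is isomorphic to the symmetric group S_6. -/
theorem result {F : Type*} [Field F] [Fintype F] (hF : Fintype.card F = 2) : Nonempty (Matrix.symplecticGroup (Fin 2) F ≃* Equiv.Perm (Fin 6)) := by
  have h2 : (2 : F) = 0 := by
    have h := FiniteField.cast_card_eq_zero F
    rw [hF] at h
    exact_mod_cast h
  obtain ⟨f, hf⟩ := Cfsg.Agent.H22.perm_sp (F := F) h2 2 le_rfl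
  have hc : Nat.card (Matrix.symplecticGroup (Fin 2) F) = 720 := by
    rw [Cfsg.Agent.H22.card_sp, hF]
    simp [Finset.prod_range_succ]
  have hc2 : Nat.card (Equiv.Perm (Fin (2 * 2 + 2))) = 720 := by
    rw [Nat.card_eq_fintype_card, Fintype.card_perm, Fintype.card_fin]
    rfl
  haveI : Finite (Matrix.symplecticGroup (Fin 2) F) := Nat.finite_of_card_ne_zero (by rw [hc]; norm_num)
  have hb : Function.Bijective f := by
    refine ⟨hf, ?_⟩
    have := (Nat.bijective_iff_injective_and_card f).2 ⟨hf, by rw [hc, hc2]⟩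
    exact this.2
  exact ⟨(MulEquiv.ofBijective f hb).symm⟩

end Cfsg.Agent.S0247
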