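import Cfsg.Statements.S0304
import Cfsg.Agent.LibH22OOrd3
import Cfsg.Agent.LibH22SpDec

set_option autoImplicit false
open Cfsg

namespace Cfsg.Agent.S0304
open Cfsg.Agent.H22 Module

section
variable {F : Type*} [Field F] {m : ℕ}

abbrev VV (F : Type*) (m : ℕ) := Unit ⊕ (Fin m ⊕ Fin m) → F
abbrev WW (F : Type*) (m : ℕ) := Fin m ⊕ Fin m → F

def pw (F : Type*) [Field F] (m : ℕ) : VV F m →ₗ[F] WW F m where
  toFun v := fun i => v (.inr i)
  map_add' _ _ := rfl
  map_smul' _ _ := rfl

def iw (F : Type*) [Field F] (m : ℕ) : WW F m →ₗ[F] VV F m where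
  toFun w := Sum.elim (fun _ => 0) w
  map_add' u v := by
    funext k
    rcases k with k | k
    · exact (add_zero (0 : F)).symm
    · rfl
  map_smul' c v := by
    funext k
    rcases k with k | k
    · exact (mul_zero c).symm
    · rfl

def e0 (F : Type*) [Field F] (m : ℕ) : VV F m := Pi.single (.inl ()) 1

lemma decomp (v : VV F m) : v = v (.inl ()) • e0 F m + iw F m (pw F m v) := by
  funext k
  rcases k with ⟨⟩ | k
  · show v (.inl ()) = v (.inl ()) * (Pi.single (.inl ()) 1 : VV F m) (.inl ()) + 0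
    rw [Pi.single_eq_same]; ring
  · show v (.inr k) = v (.inl ()) * (Pi.single (.inl ()) 1 : VV F m) (.inr k) + v (.inr k)
    rw [Pi.single_eq_of_ne (by simp)]; ring

lemma pw_e0 : pw F m (e0 F m) = 0 := by
  funext k
  show (Pi.single (.inl ()) 1 : VV F m) (.inr k) = 0
  rw [Pi.single_eq_of_ne (by simp)]

lemma pw_iw (w : WW F m) : pw F m (iw F m w) = w := rfl

lemma polar_eq (h2 : (2 : F) = 0) (u v : VV F m) : QuadraticMap.polar (qOdd m F) u v = spB m F (pw F m u) (pw F m v) := by
  rw [polar_qOdd, spB_eq_sum, h2, zero_mul, zero_mul, zero_add]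
  refine Finset.sum_congr rfl fun i _ => ?_
  show _ = u (.inr (.inr i)) * v (.inr (.inl i)) - u (.inr (.inl i)) * v (.inr (.inr i))
  linear_combination (u (.inr (.inl i)) * v (.inr (.inr i))) * h2

lemma rad (h2 : (2 : F) = 0) (u : VV F m) (h : ∀ v, QuadraticMap.polar (qOdd m F) u v = 0) : pw F m u = 0 := by
  apply spB_nondeg.1
  intro w
  have := h (iw F m w)
  rw [polar_eq h2, pw_iw] at this
  exact this

lemma Q_e0 : qOdd m F (e0 F m) = 1 := by
  rw [coe_qOdd]
  unfold Cfsg.quadFormOdd e0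
  simp

lemma fix_e0 (h2 : (2 : F) = 0) (g : OGrp (qOdd m F)) : g.1 (e0 F m) = e0 F m := by
  have h1 : pw F m (g.1 (e0 F m)) = 0 := by
    apply rad h2
    intro v
    obtain ⟨v, rfl⟩ := g.1.surjective v
    rw [OGrp_polar g.2, polar_eq h2, pw_e0, map_zero]; rfl
  have h3 := decomp (g.1 (e0 F m))
  rw [h1, map_zero, add_zero] at h3
  have h4 := g.2 (e0 F m)
  rw [h3, qsmul, Q_e0, mul_one] at h4
  have h5 : g.1 (e0 F m) (.inl ()) = 1 := by
    have : (g.1 (e0 F m) (.inl ()) - 1) * (g.1 (e0 F m) (.inl ()) - 1) = 0 := by linear_combination h4 - (g.1 (e0 F m) (.inl ()) - 1) * h2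
    exact sub_eq_zero.1 (mul_self_eq_zero.1 this)
  rw [h3, h5, one_smul]

def Phi (h2 : (2 : F) = 0) : OGrp (qOdd m F) →* Module.End F (WW F m) where
  toFun g := (pw F m).comp ((g.1 : VV F m →ₗ[F] VV F m).comp (iw F m))
  map_one' := rfl
  map_mul' g h := by
    apply LinearMap.ext
    intro w
    show pw F m (g.1 (h.1 (iw F m w))) = pw F m (g.1 (iw F m (pw F m (h.1 (iw F m w)))))
    conv_lhs => rw [decomp (h.1 (iw F m w)), map_add, map_add, map_smul, fix_e0 h2, map_smul, pw_e0, smul_zero, zero_add]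

noncomputable def PhiE (h2 : (2 : F) = 0) : OGrp (qOdd m F) →* (WW F m ≃ₗ[F] WW F m) :=
  (LinearMap.GeneralLinearGroup.generalLinearEquiv F (WW F m)).toMonoidHom.comp (Phi h2).toHomUnits

lemma PhiE_apply (h2 : (2 : F) = 0) (g : OGrp (qOdd m F)) (w : WW F m) : PhiE h2 g w = pw F m (g.1 (iw F m w)) := rfl

lemma Q_split (c : F) (w : WW F m) : qOdd m F (c • e0 F m + iw F m w) = c ^ 2 + qPlus m F w := by
  rw [coe_qOdd, coe_qPlus]
  unfold Cfsg.quadFormOdd Cfsg.quadFormPlus
  have h1 : (c • e0 F m + iw F m w) (.inl ()) = c := by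
    show c * (Pi.single (.inl ()) 1 : VV F m) (.inl ()) + 0 = c
    rw [Pi.single_eq_same]; ring
  have h2 : ∀ k, (c • e0 F m + iw F m w) (.inr k) = w k := by
    intro k
    show c * (Pi.single (.inl ()) 1 : VV F m) (.inr k) + w k = w k
    rw [Pi.single_eq_of_ne (by simp)]; ring
  rw [h1]
  simp only [h2]

lemma polar_qP (h2 : (2 : F) = 0) (u v : WW F m) : QuadraticMap.polar (qPlus m F) u v = spB m F u v := by
  rw [polar_qPlus, spB_eq_sum]
  refine Finset.sum_congr rfl fun i _ => ?_
  linear_combination (u (.inl i) * v (.inr i)) * h2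
end

/-- In characteristic 2, O_{2m+1}(q) is isomorphic to Sp_{2m}(q). -/
theorem result {F : Type*} [Field F] [Fintype F] [CharP F 2] (m : ℕ) : Nonempty (Cfsg.isometryGroup F (Cfsg.quadFormOdd m F) ≃* Matrix.symplecticGroup (Fin m) F) := by
  classical
  have h2 : (2 : F) = 0 := CharTwo.two_eq_zero
  have hinv : ∀ g : OGrp (qOdd m F), PhiE h2 g ∈ Iso (fun x y => spB m F x y) := by
    intro g x y
    show spB m F (PhiE h2 g x) (PhiE h2 g y) = spB m F x y
    rw [PhiE_apply, PhiE_apply, ← polar_eq h2, OGrp_polar g.2, polar_eq h2, pw_iw, pw_iw]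
  obtain ⟨e1⟩ := spIso m F
  rw [← coe_qOdd]
  refine ⟨((oIso (qOdd m F)).trans (MulEquiv.ofBijective ((PhiE h2).codRestrict _ hinv) ⟨?_, ?_⟩)).trans e1.symm⟩
  · rw [injective_iff_map_eq_one]
    intro g hg
    have h1 : ∀ w, pw F m (g.1 (iw F m w)) = w := by
      intro w
      rw [← PhiE_apply h2 g w]
      have := congrArg Subtype.val hg
      exact congrArg (fun z : WW F m ≃ₗ[F] WW F m => z w) this
    have h3 : ∀ w, g.1 (iw F m w) = iw F m w := by
      intro w
      have h4 := decomp (g.1 (iw F m w))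
      rw [h1] at h4
      have h5 := g.2 (iw F m w)
      have h6 := Q_split (0 : F) w
      rw [zero_smul, zero_add] at h6
      rw [h4, Q_split, h6] at h5
      have h7 : g.1 (iw F m w) (.inl ()) = 0 := by
        have : (g.1 (iw F m w) (.inl ())) ^ 2 = 0 := by linear_combination h5
        exact pow_eq_zero_iff (two_ne_zero) |>.1 this
      rw [h4, h7, zero_smul, zero_add]
    apply Subtype.ext
    apply LinearEquiv.ext
    intro v
    show g.1 v = v
    conv_lhs => rw [decomp v, map_add, map_smul, fix_e0 h2, h3]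
    exact (decomp v).symm
  · rintro ⟨A, hA⟩
    have hA' : ∀ x y, spB m F (A x) (A y) = spB m F x y := hA
    obtain ⟨s, hs⟩ : ∃ s : F →+* F, ∀ x, s (x ^ 2) = x ∧ (s x) ^ 2 = x := by
      refine ⟨((frobeniusEquiv F 2).symm : F ≃+* F).toRingHom, fun x => ⟨?_, ?_⟩⟩
      · exact (frobeniusEquiv F 2).symm_apply_apply x
      · exact (frobeniusEquiv F 2).apply_symm_apply x
    obtain ⟨f, hf⟩ : ∃ f : WW F m →ₗ[F] F, ∀ w, f w = s (qPlus m F w - qPlus m F (A w)) := by
      refine ⟨{ toFun := fun w => s (qPlus m F w - qPlus m F (A w)), map_add' := ?_, map_smul' := ?_ }, fun w => rfl⟩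
      · intro u v
        show s (qPlus m F (u + v) - qPlus m F (A (u + v))) = s (qPlus m F u - qPlus m F (A u)) + s (qPlus m F v - qPlus m F (A v))
        rw [A.map_add, qadd, qadd, polar_qP h2, polar_qP h2, hA', ← map_add s]
        congr 1
        ring
      · intro c u
        show s (qPlus m F (c • u) - qPlus m F (A (c • u))) = c * s (qPlus m F u - qPlus m F (A u))
        rw [A.map_smul, qsmul, qsmul, ← mul_sub, map_mul, ← pow_two, (hs c).1]
    obtain ⟨g0, hg0⟩ : ∃ g0 : VV F m →ₗ[F] VV F m, ∀ v, g0 v = (v (.inl ()) + f (pw F m v)) • e0 F m + iw F m (A (pw F m v)) := by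
      refine ⟨{ toFun := fun v => (v (.inl ()) + f (pw F m v)) • e0 F m + iw F m (A (pw F m v)), map_add' := ?_, map_smul' := ?_ }, fun v => rfl⟩
      · intro u v
        simp only [map_add, Pi.add_apply]
        module
      · intro c v
        simp only [_root_.map_smul, Pi.smul_apply, smul_eq_mul, RingHom.id_apply]
        module
    have hQ0 : ∀ v, qOdd m F (g0 v) = qOdd m F v := by
      intro v
      conv_rhs => rw [decomp v, Q_split]
      rw [hg0, Q_split, hf]
      have h4 := (hs (qPlus m F (pw F m v) - qPlus m F (A (pw F m v)))).2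
      linear_combination h4 + (v (.inl ()) * s (qPlus m F (pw F m v) - qPlus m F (A (pw F m v)))) * h2
    have hinj : Function.Injective g0 := by
      rw [← LinearMap.ker_eq_bot, LinearMap.ker_eq_bot']
      intro v hv
      rw [hg0] at hv
      have h4 := congrArg (pw F m) hv
      rw [map_add, _root_.map_smul, pw_e0, smul_zero, zero_add, pw_iw, map_zero] at h4
      have h5 : pw F m v = 0 := (LinearEquiv.map_eq_zero_iff A).1 h4
      rw [h5, map_zero, map_zero, map_zero, add_zero, add_zero] at hv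
      have h6 := congrFun hv (.inl ())
      have h7 : v (.inl ()) = 0 := by
        have : v (.inl ()) * (Pi.single (.inl ()) 1 : VV F m) (.inl ()) = 0 := h6
        rwa [Pi.single_eq_same, mul_one] at this
      rw [decomp v, h7, h5, zero_smul, map_zero, add_zero]
    refine ⟨⟨LinearEquiv.ofInjectiveEndo g0 hinj, fun v => hQ0 v⟩, ?_⟩
    apply Subtype.ext
    apply LinearEquiv.ext
    intro w
    show PhiE h2 _ w = A w
    rw [PhiE_apply]
    show pw F m (g0 (iw F m w)) = A w
    rw [hg0, map_add, _root_.map_smul, pw_e0, smul_zero, zero_add, pw_iw, pw_iw]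

end Cfsg.Agent.S0304
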