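import Cfsg.Statements.S1058
import Cfsg.Agent.LibSt2
import Cfsg.Agent.LibChevPoinT
import Cfsg.Agent.LibChevCard2

set_option autoImplicit false
open Cfsg

namespace Cfsg.Agent.S1058


open Cfsg.Lie CfsgLib.Chev Matrix

/-- an involution of `Fin 6` from a table -/
def pt (L : List (Fin 6)) : Fin 6 → Fin 6 := fun i => L.getD i 0

/-- the root elements as permutations -/
def tabs : List (List (Fin 6)) := [[0, 1, 4, 3, 2, 5], [5, 3, 4, 1, 2, 0], [1, 0, 4, 5, 2, 3], [0, 3, 2, 1, 4, 5], [1, 0, 2, 3, 4, 5], [2, 3, 0, 1, 5, 4], [1, 0, 3, 2, 5, 4], [0, 1, 2, 3, 5, 4]]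

def pf (r : ℕ) : Fin 6 → Fin 6 := pt (tabs.getD r [0, 1, 2, 3, 4, 5])

theorem pf_inv (r : ℕ) (i : Fin 6) : pf r (pf r i) = i := by
  have h : ∀ r < 8, ∀ i : Fin 6, pf r (pf r i) = i := by decide
  by_cases hr : r < 8
  · exact h r hr i
  · have : pf r = pt [0, 1, 2, 3, 4, 5] := by
      unfold pf
      rw [List.getD_eq_default]
      show (8 : ℕ) ≤ r
      omega
    rw [this]
    revert i
    decide

def P (r : ℕ) : Equiv.Perm (Fin 6) := ⟨pf r, pf r, pf_inv r, pf_inv r⟩

theorem P_sq (r : ℕ) : P r * P r = 1 := by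
  ext1 i
  exact pf_inv r i

open Classical in
noncomputable def y {F : Type*} [Field F] (r : ℕ) (t : F) : Equiv.Perm (Fin 6) := if t = 0 then 1 else P r

theorem chk : ∀ r < 8, ∀ s < 8, s ≠ r → s ≠ 7 - r →
    P s * P r = P r * P s * (((Tb.commT tB2.ent r s).map fun c => if c.2.1 % 2 = 0 then 1 else P c.1).prod) := by
  decide +kernel

theorem chk_pos : ∀ r < 8, ∀ s < 8, ∀ c ∈ Tb.commT tB2.ent r s, 1 ≤ c.2.2.1 ∧ 1 ≤ c.2.2.2 := by
  decide +kernel

theorem gens : ∀ i : Fin 5, ∃ L : List ℕ, (∀ r ∈ L, r < 8) ∧ Equiv.swap i.castSucc i.succ = (L.map fun r => P r).prod := by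
  intro i
  fin_cases i
  · exact ⟨[4], by decide, by decide +kernel⟩
  · exact ⟨[3, 2, 7, 2, 3], by decide, by decide +kernel⟩
  · exact ⟨[2, 7, 2], by decide, by decide +kernel⟩
  · exact ⟨[0, 2, 7, 0, 2], by decide, by decide +kernel⟩
  · exact ⟨[7], by decide, by decide +kernel⟩


/-- B₂(2) ≅ S₆. -/
theorem result {F : Type*} [Field F] [Fintype F] (hF : Fintype.card F = 2) :
    Nonempty (↥(Cfsg.Lie.chevB2.group F) ≃* Equiv.Perm (Fin 6)) := by

  classical
  have htwo : ∀ x : F, x = 0 ∨ x = 1 := by
    intro x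
    by_contra hcon
    push Not at hcon
    have h1 : ({0, 1, x} : Finset F).card ≤ Fintype.card F := Finset.card_le_univ _
    rw [Finset.card_insert_of_notMem (by simp [hcon.1.symm]), Finset.card_insert_of_notMem (by simp [hcon.2.symm]),
      Finset.card_singleton, hF] at h1
    omega
  have h2 : (2 : F) = 0 := by
    rcases htwo 2 with h | h
    · exact h
    · exfalso
      have : (1 : F) = 0 := by linear_combination h
      exact one_ne_zero this
  have : CharP F 2 := CharTwo.of_one_ne_zero_of_two_eq_zero one_ne_zero h2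
  have hneg : (-1 : F) = 1 := by linear_combination -h2
  have hint : ∀ z : ℤ, (z : F) = if z % 2 = 0 then 0 else 1 := by
    intro z
    have e : z = 2 * (z / 2) + z % 2 := by omega
    rcases Int.emod_two_eq_zero_or_one z with h | h
    · rw [if_pos h, e, h]; push_cast; rw [h2]; ring
    · rw [if_neg (by omega), e, h]; push_cast; rw [h2]; ring
  obtain ⟨φ, hφ⟩ := good3_B2.exists_lift (F := F) (fun r t => y r t) (by
      intro r hr t u
      show y r (t + u) = y r t * y r u
      unfold y
      rcases htwo t with rfl | rfl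
      · simp
      · rcases htwo u with rfl | rfl
        · simp
        · have : (1 : F) + 1 = 0 := by linear_combination h2
          rw [if_pos this, if_neg one_ne_zero, P_sq])
    (by
      intro r hr s hs h1 h2' t u
      have hpos := chk_pos r hr s hs
      have h0 : ∀ (t u : F), t = 0 ∨ u = 0 → ((Tb.commT tB2.ent r s).map fun c => y c.1 ((c.2.1 : F) * (-t) ^ c.2.2.1 * u ^ c.2.2.2)).prod = 1 := by
        intro t u htu
        apply List.prod_eq_one
        intro x hx
        rw [List.mem_map] at hx
        obtain ⟨c, hc, rfl⟩ := hx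
        obtain ⟨h3, h4⟩ := hpos c hc
        unfold y
        rw [if_pos]
        rcases htu with rfl | rfl
        · rw [neg_zero, zero_pow (by omega)]; ring
        · rw [zero_pow (n := c.2.2.2) (by omega)]; ring
      rcases htwo t with rfl | rfl
      · have h5 := h0 0 u (Or.inl rfl)
        show y s u * y r 0 = y r 0 * y s u * _
        rw [h5]
        unfold y
        simp
      · rcases htwo u with rfl | rfl
        · have h5 := h0 1 0 (Or.inr rfl)
          show y s 0 * y r 1 = y r 1 * y s 0 * _
          rw [h5]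
          unfold y
          simp
        · have h6 := chk r hr s hs h1 h2'
          have e1 : ∀ r : ℕ, y r (1 : F) = P r := fun r => if_neg one_ne_zero
          show y s 1 * y r 1 = y r 1 * y s 1 * _
          rw [e1, e1, h6]
          congr 2
          apply List.map_congr_left
          intro c _
          show _ = y c.1 _
          rw [hneg, one_pow, one_pow, mul_one, mul_one, hint]
          unfold y
          split_ifs with h7 h8 h8
          · rfl
          · exact absurd rfl h8
          · exact absurd h8 one_ne_zero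
          · rfl)
    (by
      intro r hr c d
      have hc : ∀ c : Fˣ, (c : F) = 1 := fun c => (htwo c).resolve_left (Units.ne_zero c)
      have e1 : ∀ r : ℕ, y r (1 : F) = P r := fun r => if_neg one_ne_zero
      have e2 : Hf tB2 (fun r (t : F) => y r t) r 1 = 1 := by
        unfold Hf Nf
        simp only [hneg, inv_one, e1]
        have h3 := P_sq r
        have h4 := P_sq (tB2.n - 1 - r)
        calc P r * P (tB2.n - 1 - r) * P r * (P r * P (tB2.n - 1 - r) * P r) =
            P r * (P (tB2.n - 1 - r) * (P r * P r) * P (tB2.n - 1 - r)) * P r := by group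
          _ = 1 := by rw [h3, mul_one, h4, mul_one, h3]
      rw [hc, hc, hc, e2, mul_one])
  -- surjectivity
  have hsurj : Function.Surjective φ := by
    rw [← MonoidHom.range_eq_top, eq_top_iff]
    have h3 : (⊤ : Submonoid (Equiv.Perm (Fin 6))) ≤ φ.range.toSubmonoid := by
      rw [← Equiv.Perm.mclosure_swap_castSucc_succ 5, Submonoid.closure_le]
      rintro _ ⟨i, rfl⟩
      obtain ⟨L, hLlt, hL⟩ := gens i
      show Equiv.swap i.castSucc i.succ ∈ φ.range
      rw [hL]
      apply Subgroup.list_prod_mem
      intro x hx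
      rw [List.mem_map] at hx
      obtain ⟨r, hr, rfl⟩ := hx
      refine ⟨chevB2.stGen F r 1, ?_⟩
      rw [hφ r (hLlt r hr)]
      exact if_neg one_ne_zero
    intro x _
    exact h3 (Submonoid.mem_top x)
  -- the Steinberg group is the Chevalley group
  obtain ⟨R, hR⟩ := good3_B2.exists_RG2 (F := F) tr_B2
  have hker : R.pi.ker = ⊥ := by
    rw [eq_bot_iff]
    intro z hz
    obtain ⟨a, ha, e⟩ := R.ker_prod hz
    rw [Subgroup.mem_bot, e]
    apply List.prod_eq_one
    intro x hx
    rw [List.mem_map] at hx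
    obtain ⟨i, hi, rfl⟩ := hx
    have hc : ((ext1 a i : Fˣ) : F) = 1 := (htwo _).resolve_left (Units.ne_zero _)
    rw [hc]
    exact R.Hb_one (good3_B2.sim_lt (List.mem_range.1 hi))
  have e1 : chevB2.SteinbergGroup F ≃* R.pi.range := MonoidHom.ofInjective ((MonoidHom.ker_eq_bot_iff _).1 hker)
  have e2 : R.pi.range ≃* ↥(chevB2.group F) := MulEquiv.subgroupCongr R.pi_range
  have e3 := e1.trans e2
  have hcard : Nat.card ↥(chevB2.group F) = 720 := by
    have h := good3_B2.card_formula (F := F) ocnn_B2 poin_B2 smith_B2 rfl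
    have h2 : tB2.n / 2 = 4 := rfl
    rw [h2, hF] at h
    have n2 : Int.natAbs 2 = 2 := rfl
    simp only [List.map_cons, List.map_nil, List.prod_cons, List.prod_nil, mul_one, Int.natAbs_neg, Int.natAbs_one,
      Nat.gcd_one_left, one_mul, n2] at h
    norm_num at h
    rw [Nat.card_eq_fintype_card]
    exact h
  have hcard2 : Nat.card (chevB2.SteinbergGroup F) = 720 := by
    rw [Nat.card_congr e3.toEquiv, hcard]
  have hbij : Function.Bijective φ := by
    have : Finite (chevB2.SteinbergGroup F) := Nat.finite_of_card_ne_zero (by rw [hcard2]; norm_num)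
    rw [Nat.bijective_iff_surjective_and_card]
    refine ⟨hsurj, ?_⟩
    rw [hcard2, Nat.card_eq_fintype_card, Fintype.card_perm, Fintype.card_fin]
    rfl
  exact ⟨e3.symm.trans (MulEquiv.ofBijective φ hbij)⟩

end Cfsg.Agent.S1058
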