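import Cfsg.Agent.LibH22Cv6
import Cfsg.Agent.LibH22Cv7
import Cfsg.Agent.LibAutPSp27g
import Cfsg.Agent.LibCardAut27
import Cfsg.Agent.S0304
import Cfsg.Agent.S0247
import Cfsg.Agent.S1058

set_option autoImplicit false

/-! Automorphisms of PSp. -/

namespace Cfsg.Agent.H22.Cv

open CfsgLib.Chev Cfsg.Lie CfsgLib.SA

theorem perm_center_bot {n : ℕ} (hn : 3 ≤ n) : Subgroup.center (Equiv.Perm (Fin n)) = ⊥ := by
  rw [eq_bot_iff]
  intro σ hσ
  rw [Subgroup.mem_bot]
  apply Equiv.ext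
  intro a
  by_contra hne
  have hne' : σ a ≠ a := hne
  obtain ⟨c, hc⟩ : ∃ c : Fin n, c ∉ ({a, σ a} : Finset (Fin n)) := by
    by_contra h
    push Not at h
    have : (Finset.univ : Finset (Fin n)) ⊆ {a, σ a} := fun c _ => h c
    have h2 := Finset.card_le_card this
    rw [Finset.card_univ, Fintype.card_fin] at h2
    have := Finset.card_le_two (a := a) (b := σ a)
    omega
  rw [Finset.mem_insert, Finset.mem_singleton, not_or] at hc
  have h1 := Subgroup.mem_center_iff.1 hσ (Equiv.swap (σ a) c)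
  have h2 := congrArg (fun g : Equiv.Perm (Fin n) => g a) h1
  simp only [Equiv.Perm.mul_apply] at h2
  rw [Equiv.swap_apply_left, Equiv.swap_apply_of_ne_of_ne (Ne.symm hne') (fun h => hc.1 h.symm)] at h2
  exact hc.2 h2

/-- quotient by a trivial centre -/
theorem quot_center_bot {G : Type*} [Group G] (h : Subgroup.center G = ⊥) : Nonempty ((G ⧸ Subgroup.center G) ≃* G) :=
  ⟨(QuotientGroup.quotientMulEquivOfEq h).trans QuotientGroup.quotientBot⟩

theorem exists_ne_of_card {F : Type*} [Field F] [Fintype F] (h : 3 ≤ Fintype.card F) : ∃ a : F, a ≠ 0 ∧ a ≠ 1 := by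
  classical
  by_contra hcon
  push Not at hcon
  have : Fintype.card F ≤ 2 := by
    have hsub : (Finset.univ : Finset F) ⊆ {0, 1} := by
      intro a _
      by_cases ha : a = 0
      · simp [ha]
      · simp [hcon a ha]
    calc Fintype.card F = (Finset.univ : Finset F).card := rfl
      _ ≤ ({0, 1} : Finset F).card := Finset.card_le_card hsub
      _ ≤ 2 := Finset.card_le_two
  omega

/-- commutator subgroups correspond -/
noncomputable def commCongr {G H : Type*} [Group G] [Group H] (e : G ≃* H) : ↥(commutator G) ≃* ↥(commutator H) :=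
  (e.subgroupMap (commutator G)).trans (MulEquiv.subgroupCongr (by
    rw [commutator_def, commutator_def, Subgroup.map_commutator]
    congr 1 <;> exact Subgroup.map_top_of_surjective _ e.surjective))

theorem psp_B2 {F : Type*} [Field F] [Fintype F] [CharP F 2] {f : ℕ} (hf : 1 ≤ f) (hF : Fintype.card F = 2 ^ f) :
    Nonempty (Cfsg.PSp 2 F ≃* ↥(chevB2.group F)) := by
  by_cases h2 : f = 1
  · subst h2
    rw [pow_one] at hF
    obtain ⟨e1⟩ := Cfsg.Agent.S0247.result (F := F) hF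
    obtain ⟨e2⟩ := Cfsg.Agent.S1058.result (F := F) hF
    obtain ⟨e3⟩ := quot_center_bot (perm_center_bot (n := 6) (by omega))
    exact ⟨((quotCenterCongr e1).trans e3).trans e2.symm⟩
  · have h3 : 3 ≤ Fintype.card F := by
      rw [hF]
      have : 2 ^ 2 ≤ 2 ^ f := Nat.pow_le_pow_right (by norm_num) (by omega)
      omega
    obtain ⟨e1⟩ := Cfsg.Agent.S0304.result (F := F) 2
    obtain ⟨e2⟩ := isoB (exists_ne_of_card h3)
    have e3 : ↥(commutator (Cfsg.isometryGroup F (Cfsg.quadFormOdd 2 F))) ≃* ↥(commutator (Matrix.symplecticGroup (Fin 2) F)) := commCongr e1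
    have e4 : ↥(commutator (Matrix.symplecticGroup (Fin 2) F)) ≃* Matrix.symplecticGroup (Fin 2) F :=
      (MulEquiv.subgroupCongr (sp_perfect (Or.inr (Or.inl ⟨rfl, h3⟩)))).trans Subgroup.topEquiv
    exact ⟨(quotCenterCongr (e3.trans e4)).symm.trans e2.symm⟩

/-- the outer automorphism group of `Sp_4(2^f)` -/
theorem out_psp_four {F : Type*} [Field F] [Fintype F] {f : ℕ} (hf : 1 ≤ f) (hF : Fintype.card F = 2 ^ f) :
    IsCyclic (Cfsg.Out (Cfsg.PSp 2 F)) ∧ Nat.card (Cfsg.Out (Cfsg.PSp 2 F)) = 2 * f := by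
  haveI : Fact (Nat.Prime 2) := ⟨Nat.prime_two⟩
  haveI : CharP F 2 := charP_of_card_eq_prime_pow hF
  obtain ⟨e⟩ := psp_B2 hf hF
  have e' := outCongr e
  have h1 := cyc_B2 (F := F) f hf hF
  refine ⟨isCyclic_of_surjective e'.symm e'.symm.surjective, ?_⟩
  rw [Nat.card_congr e'.toEquiv, out_B2 f hf hF]

section Gen

open CfsgLib.AutPSp27 CfsgLib.Semi27

theorem out_psp_gen {m : ℕ} {F : Type*} [Field F] [Fintype F] {p f : ℕ} [Fact p.Prime] (hF : Fintype.card F = p ^ f) (hm : 2 ≤ m)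
    (h4 : m = 2 → p ≠ 2) : Nat.card (Cfsg.Out (Cfsg.PSp m F)) = Nat.gcd 2 (p ^ f - 1) * f := by
  haveI : CharP F p := charP_of_card_eq_prime_pow hF
  have hm1 : 1 ≤ m := by omega
  have hgal := (gal_card p f (F := F) (by rw [Nat.card_eq_fintype_card, hF])).2
  -- the number of automorphisms
  have hmain : ∀ α : MulAut (Cfsg.PSp m F), ∃ (g : Cfsg.GSp m F) (σ : F ≃+* F), α = rho m F g * phi m σ := by
    intro α
    obtain ⟨g, σ, hg, h⟩ := main (p := p) hm h4 α
    exact ⟨⟨g, hg⟩, σ, (isInd_iff hg σ α).1 h⟩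
  have hcard : Nat.card (MulAut (Cfsg.PSp m F)) = Nat.card ↥(rho m F).range * f := by
    rw [← hgal, ← Nat.card_prod]
    symm
    apply Nat.card_congr (Equiv.ofBijective (fun q : ↥(rho m F).range × (F ≃+* F) => q.1.1 * phi m q.2) ⟨?_, ?_⟩)
    · rintro ⟨⟨_, g, rfl⟩, σ⟩ ⟨⟨_, g', rfl⟩, σ'⟩ h
      have h' : rho m F g * phi m σ = rho m F g' * phi m σ' := h
      have e1 : phi m σ * (phi m σ')⁻¹ = phi m (σ * σ'⁻¹) := by
        have := map_mul ((CfsgLib.AutPSL27.lft (G := Matrix.symplecticGroup (Fin m) F)).comp fS) σ σ'⁻¹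
        rw [map_inv] at this
        exact this.symm
      have h1 : rho m F (g'⁻¹ * g) * phi m (σ * σ'⁻¹) = 1 := by
        rw [map_mul, map_inv, ← e1, mul_assoc, ← mul_assoc (rho m F g), h']
        group
      obtain ⟨h2, -⟩ := unique_one (p := p) hm1 h1
      have h3 : σ = σ' := mul_inv_eq_one.1 h2
      subst h3
      have h4 := mul_right_cancel h'
      rw [Prod.mk.injEq]
      exact ⟨Subtype.ext h4, rfl⟩
    · intro α
      obtain ⟨g, σ, h⟩ := hmain α
      exact ⟨(⟨_, g, rfl⟩, σ), h.symm⟩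
  -- the index of the inner automorphisms
  have hidx : (Cfsg.Inn (Cfsg.PSp m F)).relIndex (rho m F).range = Nat.gcd 2 (p ^ f - 1) := by
    rw [← Subgroup.index_comap]
    have e1 : (Cfsg.Inn (Cfsg.PSp m F)).comap (rho m F) = ((powMonoidHom 2 : Fˣ →* Fˣ).range).comap (mult hm1) := by
      ext g
      rw [Subgroup.mem_comap, Subgroup.mem_comap, mem_inn_iff (p := p) hm1]
    classical
    rw [e1, Subgroup.index_comap_of_surjective _ (fun c => ⟨⟨dS c, dS_mem c⟩, mult_dS hm1 c⟩), IsCyclic.index_powMonoidHom_range,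
      Nat.gcd_comm, Nat.card_eq_fintype_card, Fintype.card_units, hF]
  have h5 : Nat.card ↥(rho m F).range = Nat.card ↥(Cfsg.Inn (Cfsg.PSp m F)) * Nat.gcd 2 (p ^ f - 1) := by
    rw [← hidx, ← Subgroup.relIndex_bot_left, ← Subgroup.relIndex_bot_left, Subgroup.relIndex_mul_relIndex _ _ _ bot_le inn_le]
  haveI : Finite (Cfsg.PSp m F) := inferInstance
  haveI : Finite (MulAut (Cfsg.PSp m F)) := inferInstance
  have h6 := Subgroup.card_mul_index (Cfsg.Inn (Cfsg.PSp m F))
  rw [hcard, h5, mul_assoc] at h6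
  have h7 : 0 < Nat.card ↥(Cfsg.Inn (Cfsg.PSp m F)) := Nat.card_pos
  exact Nat.eq_of_mul_eq_mul_left h7 h6

theorem card_mulaut_psp {F : Type*} [Field F] [Fintype F] (p f : ℕ) [Fact p.Prime] (hf : 1 ≤ f) (hF : Fintype.card F = p ^ f) (m : ℕ)
    (hm : 2 ≤ m) (h22 : m = 2 → 3 ≤ p ^ f) : Nat.card (MulAut (Cfsg.PSp m F)) =
      (if m = 2 ∧ p = 2 then 2 else 1) * Nat.gcd 2 (p ^ f - 1) * f * Nat.card (Cfsg.PSp m F) := by
  have hs := psp_simple (F := F) hm (fun h => by rw [hF]; exact h22 h)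
  haveI : CharP F p := charP_of_card_eq_prime_pow hF
  have hm1 : 1 ≤ m := by omega
  have hinj : Function.Injective (MulAut.conj : Cfsg.PSp m F →* MulAut (Cfsg.PSp m F)) := by
    rw [injective_iff_map_eq_one]
    intro a ha
    obtain ⟨s, rfl⟩ := QuotientGroup.mk_surjective a
    rw [show MulAut.conj (QuotientGroup.mk s : Cfsg.PSp m F) = rho m F (toGSp s) from conj_mk s, rho_ker (p := p) hm1] at ha
    obtain ⟨u, hu⟩ := ha
    rw [QuotientGroup.eq_one_iff, Subgroup.mem_center_iff]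
    intro t
    apply Subtype.ext
    have hu' : (s : Matrix (Fin m ⊕ Fin m) (Fin m ⊕ Fin m) F) = ((scal u : GL (Fin m ⊕ Fin m) F) : Matrix (Fin m ⊕ Fin m) (Fin m ⊕ Fin m) F) :=
      congrArg Units.val hu
    have ht : ((toGSp t : Cfsg.GSp m F) : GL (Fin m ⊕ Fin m) F) * scal u = scal u * ((toGSp t : Cfsg.GSp m F) : GL (Fin m ⊕ Fin m) F) :=
      (scal_comm _ _).symm
    show (t : Matrix (Fin m ⊕ Fin m) (Fin m ⊕ Fin m) F) * s = s * t
    rw [hu']
    exact congrArg Units.val ht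
  rw [CfsgLib.RhoO27.card_mulAut hinj]
  congr 1
  by_cases h : m = 2 ∧ p = 2
  · rw [if_pos h]
    obtain ⟨rfl, rfl⟩ := h
    rw [(out_psp_four hf hF).2]
    have h7 : Nat.gcd 2 (2 ^ f - 1) = 1 := by
      have h9 : Nat.Coprime 2 (2 ^ f - 1) := by
        rw [Nat.coprime_two_left]
        have : Even (2 ^ f) := (Nat.even_pow.2 ⟨by decide, by omega⟩)
        have h8 : 1 ≤ 2 ^ f := Nat.one_le_two_pow
        exact Nat.Even.sub_odd h8 this (by decide)
      exact h9
    rw [h7, mul_one]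
  · rw [if_neg h, one_mul, out_psp_gen hF hm (fun h1 h2 => h ⟨h1, h2⟩)]

end Gen

end Cfsg.Agent.H22.Cv
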