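import Cfsg.Agent.LibAutPSp27g
import Cfsg.Agent.LibH22Cv8

set_option autoImplicit false

/-! Automorphisms of `PSp_{2m}(F)`, part 3: automorphisms permuting the transvection groups. -/

namespace CfsgLib.AutPSp27

open Matrix Cfsg.Agent.H22 CfsgLib.SylCen27 CfsgLib.FTPG27 CfsgLib.Semi27 CfsgLib.H9027

variable {m : ℕ} {F : Type*} [Field F]

local notation "V" => (Fin m ⊕ Fin m → F)
local notation "Sp" => (Matrix.symplecticGroup (Fin m) F)
local notation "B" => (spB m F)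
local notation "π" => (QuotientGroup.mk' (Subgroup.center (Matrix.symplecticGroup (Fin m) F)))

/-- **Automorphisms of `PSp` come from semilinear maps.** -/
theorem main_of [Finite F] {p : ℕ} [Fact p.Prime] [CharP F p] (hm : 2 ≤ m) (α : Cfsg.PSp m F ≃* Cfsg.PSp m F)
    (hA : ∀ v : V, v ≠ 0 → ∃ v' : V, v' ≠ 0 ∧ α '' R v = R v') (hA' : ∀ v : V, v ≠ 0 → ∃ v' : V, v' ≠ 0 ∧ α.symm '' R v = R v') :
    ∃ (g : GL (Fin m ⊕ Fin m) F) (σ : F ≃+* F), g ∈ Cfsg.GSp m F ∧ Cfsg.IsInducedBySemilinearPSp g σ α := by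
  classical
  choose! f hf using hA
  have hf0 : ∀ v, v ≠ 0 → f v ≠ 0 := fun v hv => (hf v hv).1
  have hfR : ∀ v, v ≠ 0 → α '' R v = R (f v) := fun v hv => (hf v hv).2
  have hfB : ∀ v w, v ≠ 0 → w ≠ 0 → (B (f v) (f w) = 0 ↔ B v w = 0) := by
    intro v w hv hw
    rw [← comm_iff (p := p) hw, ← comm_iff (p := p) (hf0 w hw), ← hfR v hv, ← hfR w hw]
    constructor
    · intro h x hx y hy
      apply α.injective
      rw [map_mul, map_mul]
      exact h _ ⟨x, hx, rfl⟩ _ ⟨y, hy, rfl⟩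
    · rintro h _ ⟨x, hx, rfl⟩ _ ⟨y, hy, rfl⟩
      rw [← map_mul, ← map_mul, h x hx y hy]
  have hf1 : ∀ v w, v ≠ 0 → w ≠ 0 → PF F v w → PF F (f v) (f w) := by
    intro v w hv hw h
    apply R_inj (p := p) (hf0 v hv)
    rw [← hfR v hv, ← hfR w hw, R_congr h]
  have hf2 : ∀ v w, v ≠ 0 → w ≠ 0 → PF F (f v) (f w) → PF F v w := by
    intro v w hv hw h
    apply R_inj (p := p) hv
    apply Set.image_injective.2 α.injective
    rw [hfR v hv, hfR w hw, R_congr h]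
  have hsurj : ∀ x : V, x ≠ 0 → ∃ y, y ≠ 0 ∧ PF F (f y) x := by
    intro x hx
    obtain ⟨y, hy, h⟩ := hA' x hx
    refine ⟨y, hy, ?_⟩
    apply R_inj (p := p) (hf0 y hy)
    rw [← hfR y hy, ← h, ← Set.image_comp]
    have : (α ∘ α.symm) = id := by ext z; simp
    rw [this, Set.image_id]
  have hB1 : ∀ {x y z : V}, PF F x y → (B x z = 0 ↔ B y z = 0) := by
    rintro x _ z ⟨c, hc, rfl⟩
    rw [map_smul, LinearMap.smul_apply, smul_eq_mul, mul_eq_zero, or_iff_right hc]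
  have hf3 : ∀ u v w, u ≠ 0 → v ≠ 0 → w ≠ 0 → (∃ a b : F, w = a • u + b • v) → ∃ a b : F, f w = a • f u + b • f v := by
    rintro u v w hu hv hw ⟨a, b, hab⟩
    apply perp2
    intro x h1 h2
    by_cases hx : x = 0
    · rw [hx, map_zero, LinearMap.zero_apply]
    obtain ⟨y, hy, hyx⟩ := hsurj x hx
    rw [← hB1 hyx] at h1 h2 ⊢
    rw [hfB y u hy hu] at h1
    rw [hfB y v hy hv] at h2
    rw [hfB y w hy hw, hab, map_add, map_smul, map_smul, h1, h2, smul_zero, smul_zero, add_zero]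
  have hf4 : ∀ u v w, u ≠ 0 → v ≠ 0 → w ≠ 0 → (∃ a b : F, f w = a • f u + b • f v) → ∃ a b : F, w = a • u + b • v := by
    rintro u v w hu hv hw ⟨a, b, hab⟩
    apply perp2
    intro x h1 h2
    by_cases hx : x = 0
    · rw [hx, map_zero, LinearMap.zero_apply]
    rw [← hfB x w hx hw, hab, map_add, map_smul, map_smul, (hfB x u hx hu).2 h1, (hfB x v hx hv).2 h2, smul_zero, smul_zero,
      add_zero]
  have hi1 : (Sum.inl ⟨0, by omega⟩ : Fin m ⊕ Fin m) ≠ Sum.inl ⟨1, by omega⟩ := by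
    intro h
    have := Sum.inl_injective h
    simp at this
  have hi2 : (Sum.inl ⟨0, by omega⟩ : Fin m ⊕ Fin m) ≠ Sum.inr ⟨0, by omega⟩ := by simp
  have hi3 : (Sum.inl ⟨1, by omega⟩ : Fin m ⊕ Fin m) ≠ Sum.inr ⟨0, by omega⟩ := by simp
  obtain ⟨σ, g, hg⟩ := ftpg hi1 hi2 hi3 f hf0 hf1 hf2 hf3 hf4
  have hσ0 : ∀ v : V, v ≠ 0 → (σ.symm ∘ v : V) ≠ 0 := by
    intro v hv h
    apply hv
    ext i
    have := congrFun h i
    simp only [Function.comp_apply, Pi.zero_apply] at this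
    rw [← σ.apply_symm_apply (v i), this, map_zero]; rfl
  have hσσ : ∀ v : V, (σ ∘ (σ.symm ∘ v) : V) = v := by
    intro v; ext i; simp
  let C : LinearMap.BilinForm F V := (B).compl₁₂ (Matrix.toLin' (g : Matrix (Fin m ⊕ Fin m) (Fin m ⊕ Fin m) F))
    (Matrix.toLin' (g : Matrix (Fin m ⊕ Fin m) (Fin m ⊕ Fin m) F))
  have hC : ∀ x y, C x y = B ((g : Matrix (Fin m ⊕ Fin m) (Fin m ⊕ Fin m) F) *ᵥ x) ((g : Matrix (Fin m ⊕ Fin m) (Fin m ⊕ Fin m) F) *ᵥ y) :=
    fun _ _ => rfl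
  have hB2 : ∀ {x y z : V}, PF F x y → (B z x = 0 ↔ B z y = 0) := by
    rintro x _ z ⟨c, hc, rfl⟩
    rw [map_smul, smul_eq_mul, mul_eq_zero, or_iff_right hc]
  have hCB : ∀ x y, B x y = 0 ↔ C x y = 0 := by
    intro x y
    by_cases hx : x = 0
    · subst hx; simp
    by_cases hy : y = 0
    · subst hy; simp
    have h1 := hg _ (hσ0 x hx)
    have h2 := hg _ (hσ0 y hy)
    rw [hσσ] at h1 h2
    rw [hC, ← hB1 h1, ← hB2 h2, hfB _ _ (hσ0 x hx) (hσ0 y hy), B_sigma]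
    exact (map_eq_zero_iff _ σ.symm.injective).symm
  obtain ⟨c, hc⟩ := proportional C (fun x y h => (hCB x y).1 h) (by omega)
  have hc0 : c ≠ 0 := by
    rintro rfl
    have hv0 : (Pi.single (Sum.inl ⟨0, by omega⟩) 1 : V) ≠ 0 := by
      intro h
      have h2 := congrFun h (Sum.inl ⟨0, by omega⟩)
      simp at h2
    obtain ⟨x0, hx0⟩ := exists_dual hv0
    have := (hCB x0 (Pi.single (Sum.inl ⟨0, by omega⟩) 1)).2 (by rw [hc, zero_mul])
    rw [hx0] at this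
    exact one_ne_zero this
  refine ⟨g, σ, ⟨Units.mk0 c hc0, fun u v => ?_⟩, ?_⟩
  · rw [← spB_apply, ← spB_apply, ← hC, hc, Units.val_mk0]
  -- the automorphism is induced by `(g, σ)`
  intro s s' hs
  -- lift `α (mk s)`
  obtain ⟨t, ht⟩ := QuotientGroup.mk'_surjective (Subgroup.center Sp) (α (π s))
  have hs' : ∀ v : V, spToLin s' ((g : Matrix (Fin m ⊕ Fin m) (Fin m ⊕ Fin m) F) *ᵥ (σ ∘ v)) =
      (g : Matrix (Fin m ⊕ Fin m) (Fin m ⊕ Fin m) F) *ᵥ (σ ∘ (spToLin s v)) := by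
    intro v
    rw [spToLin_apply, hs, mulVec_mulVec, mul_assoc, mul_assoc, Units.inv_mul, mul_one, ← mulVec_mulVec]
    congr 1
    ext i
    simp only [spToLin_apply, mulVec, dotProduct, Function.comp_apply, Matrix.map_apply, map_sum, map_mul]
  have hts : ∀ v : V, v ≠ 0 → PF F (spToLin t (f v)) (f (spToLin s v)) := by
    intro v hv
    have hsv : spToLin s v ≠ 0 := fun h => hv ((LinearEquiv.map_eq_zero_iff _).1 h)
    have htv : spToLin t (f v) ≠ 0 := fun h => hf0 v hv ((LinearEquiv.map_eq_zero_iff _).1 h)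
    apply R_inj (p := p) htv
    rw [← conj_R, ← hfR _ hsv, ← hfR _ hv, ← conj_R, ht, ← Set.image_comp, ← Set.image_comp]
    congr 1
    ext z
    simp only [Function.comp_apply, MulAut.conj_apply, map_mul, map_inv]
  have htlin : ∀ w : V, ∃ c : F, spToLin t w = c • spToLin s' w := by
    intro w
    by_cases hw : w = 0
    · exact ⟨0, by rw [hw, map_zero, zero_smul]⟩
    -- `w = g σ(v)`
    set v : V := σ.symm ∘ (((g⁻¹ : GL (Fin m ⊕ Fin m) F) : Matrix (Fin m ⊕ Fin m) (Fin m ⊕ Fin m) F) *ᵥ w) with hv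
    have hwv : (g : Matrix (Fin m ⊕ Fin m) (Fin m ⊕ Fin m) F) *ᵥ (σ ∘ v) = w := by
      rw [hv, hσσ, mulVec_mulVec, Units.mul_inv, one_mulVec]
    have hv0 : v ≠ 0 := by
      intro h
      rw [h] at hwv
      apply hw
      rw [← hwv]
      have : (σ ∘ (0 : V) : V) = 0 := by ext i; simp
      rw [this, mulVec_zero]
    have hsv : spToLin s v ≠ 0 := fun h => hv0 ((LinearEquiv.map_eq_zero_iff _).1 h)
    obtain ⟨a, ha, h1⟩ := (hg v hv0)
    rw [hwv] at h1
    obtain ⟨b, hb, h2⟩ := (hts v hv0).symm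
    obtain ⟨d, hd, h3⟩ := hg _ hsv
    rw [← hs', hwv] at h3
    have h4 : f (spToLin s v) = d⁻¹ • spToLin s' w := by rw [h3, smul_smul, inv_mul_cancel₀ hd, one_smul]
    refine ⟨a * b * d⁻¹, ?_⟩
    calc spToLin t w = spToLin t (a • f v) := by rw [← h1]
      _ = a • b • d⁻¹ • spToLin s' w := by rw [map_smul, h2, h4]
      _ = _ := by module
  -- `t = k s'`
  have hz : (s'⁻¹ * t) ∈ Subgroup.center Sp := by
    obtain ⟨a, ha⟩ := (spToLin (s'⁻¹ * t) : V →ₗ[F] V).exists_eq_smul_id_of_forall_notLinearIndependent (fun v => by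
      by_cases hv : v = 0
      · subst hv
        intro h
        exact (h.ne_zero 0) rfl
      · rw [LinearIndependent.pair_iff' hv]
        push Not
        obtain ⟨c, hc⟩ := htlin v
        refine ⟨c, ?_⟩
        show _ = spToLin (s'⁻¹ * t) v
        rw [map_mul, LinearEquiv.mul_apply, hc, map_smul, inv_mul_app])
    rw [Subgroup.mem_center_iff]
    intro x
    have ha' : ∀ v, spToLin (s'⁻¹ * t) v = a • v := fun v => LinearMap.congr_fun ha v
    apply lin_ext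
    intro v
    rw [map_mul spToLin x, map_mul spToLin (s'⁻¹ * t), LinearEquiv.mul_apply, LinearEquiv.mul_apply, ha', ha', map_smul]
  have h5 : π s' = π t := QuotientGroup.eq.2 hz
  show α (π s) = π s'
  rw [h5, ht]


/-! ### characteristic two -/

/-- the transvections -/
def TT (m : ℕ) (F : Type*) [Field F] : Set (Cfsg.PSp m F) := {z | ∃ (w : Fin m ⊕ Fin m → F) (c : F), w ≠ 0 ∧ c ≠ 0 ∧ z = (QuotientGroup.mk' (Subgroup.center (Matrix.symplecticGroup (Fin m) F))) (spT w c)}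

theorem pi_inj_two [CharP F 2] (hm : 1 ≤ m) {x y : Sp} (h : π x = π y) : x = y := by
  haveI : Fact (Nat.Prime 2) := ⟨Nat.prime_two⟩
  have hinj : Function.Injective π := by
    rw [injective_iff_map_eq_one]
    intro x hx
    have hx' := hx
    rw [QuotientGroup.mk'_apply, QuotientGroup.eq_one_iff] at hx'
    obtain ⟨a, ha⟩ := center_sp_scalar hx'
    have h1 : a ^ 2 = 1 := by
      rw [← smul_one_mem_sp_iff (m := m) (by omega), ← ha]
      exact x.2
    refine hK (p := 2) x 1 ?_ hx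
    apply Subtype.ext
    show (x : Matrix (Fin m ⊕ Fin m) (Fin m ⊕ Fin m) F) ^ (2 ^ 1) = 1
    rw [ha, pow_one, smul_pow, one_pow, h1, one_smul]
  exact hinj h

theorem TT_prod [CharP F 2] (hm : 1 ≤ m) {v w : V} (hv : v ≠ 0) (hw : w ≠ 0) {c d : F} (hc : c ≠ 0) (hd : d ≠ 0)
    (h : ∃ (u : V) (e : F), (spT v c : Sp) * spT w d = spT u e) : PF F v w := by
  obtain ⟨u, e, h⟩ := h
  by_contra hne
  have hwv : ¬ ∃ k : F, w = k • v := by
    rintro ⟨k, hk⟩
    apply hne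
    have hk0 : k ≠ 0 := by
      rintro rfl
      rw [zero_smul] at hk
      exact hw hk
    rw [hk]
    exact PF.smul hk0 v
  obtain ⟨⟨x2, h21, h22⟩, x1, h11, h12⟩ := dual_pair hv hwv
  have key : ∀ x : V, spToLin ((spT v c : Sp) * spT w d) x = spToLin (spT u e) x := fun x => by rw [h]
  have key2 : ∀ x : V, (d * B x w) • w + (c * (B x v + (d * B x w) * B w v)) • v = (e * B x u) • u := by
    intro x
    have h1 := key x
    rw [map_mul, LinearEquiv.mul_apply, tr_apply, tr_apply, tr_apply] at h1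
    simp only [map_add, map_smul, LinearMap.add_apply, LinearMap.smul_apply, smul_eq_mul] at h1
    have h2 := congrArg (fun z => z - x) h1
    simp only [add_sub_cancel_left] at h2
    rw [← h2]
    abel
  have k1 := key2 x1
  have k2 := key2 x2
  rw [h11, h12, mul_zero, zero_smul, zero_add, zero_mul, add_zero, mul_one] at k1
  rw [h21, h22, mul_one, zero_add] at k2
  have heu : e * B x1 u ≠ 0 := by
    intro h0
    rw [h0, zero_smul] at k1
    exact smul_ne_zero hc hv k1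
  have hu : u = ((e * B x1 u)⁻¹ * c) • v := by
    rw [mul_smul, k1, smul_smul, inv_mul_cancel₀ heu, one_smul]
  apply hwv
  refine ⟨d⁻¹ * ((e * B x2 u) * ((e * B x1 u)⁻¹ * c) - c * (d * B w v)), ?_⟩
  have h3 : d • w = ((e * B x2 u) * ((e * B x1 u)⁻¹ * c) - c * (d * B w v)) • v := by
    rw [sub_smul, mul_smul (e * B x2 u), ← hu, ← k2]
    abel
  rw [mul_smul, ← h3, smul_smul, inv_mul_cancel₀ hd, one_smul]

theorem mem_R_iff [CharP F 2] (hm : 1 ≤ m) {v : V} (hv : v ≠ 0) {c : F} (hc : c ≠ 0) (z : Cfsg.PSp m F) :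
    z ∈ R v ↔ z = 1 ∨ (z ∈ TT m F ∧ (π (spT v c) * z = 1 ∨ π (spT v c) * z ∈ TT m F)) := by
  constructor
  · rintro ⟨_, ⟨d, rfl⟩, rfl⟩
    by_cases hd : d = 0
    · left
      rw [hd, spT_zero, map_one]
    · right
      refine ⟨⟨v, d, hv, hd, rfl⟩, ?_⟩
      rw [← map_mul, spT_mul]
      by_cases hcd : c + d = 0
      · left
        rw [hcd, spT_zero, map_one]
      · right
        exact ⟨v, c + d, hv, hcd, rfl⟩
  · rintro (rfl | ⟨⟨w, d, hw, hd, rfl⟩, h⟩)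
    · exact ⟨_, ⟨0, rfl⟩, by rw [spT_zero, map_one]⟩
    · have hP : PF F v w := by
        apply TT_prod hm hv hw hc hd
        rcases h with h | ⟨u, e, hu, he, h⟩
        · refine ⟨v, 0, ?_⟩
          rw [spT_zero]
          apply pi_inj_two hm
          rw [map_mul, map_one, h]
        · refine ⟨u, e, ?_⟩
          apply pi_inj_two hm
          rw [map_mul, h]
      rw [R_congr hP]
      exact ⟨_, ⟨d, rfl⟩, rfl⟩

theorem map_R_of_TT [CharP F 2] (hm : 1 ≤ m) (α : Cfsg.PSp m F ≃* Cfsg.PSp m F) (h1 : ∀ z, z ∈ TT m F → α z ∈ TT m F) (h2 : ∀ z, z ∈ TT m F → α.symm z ∈ TT m F)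
    {v : V} (hv : v ≠ 0) : ∃ v' : V, v' ≠ 0 ∧ α '' R v = R v' := by
  obtain ⟨v', c', hv', hc', h⟩ := h1 (π (spT v 1)) ⟨v, 1, hv, one_ne_zero, rfl⟩
  have hiff : ∀ z, α.symm z ∈ TT m F ↔ z ∈ TT m F := by
    intro z
    constructor
    · intro hz
      have := h1 _ hz
      rwa [α.apply_symm_apply] at this
    · exact h2 z
  refine ⟨v', hv', ?_⟩
  ext z
  have h3 : z ∈ α '' R v ↔ α.symm z ∈ R v := by
    constructor
    · rintro ⟨y, hy, rfl⟩
      rwa [α.symm_apply_apply]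
    · intro hz
      exact ⟨_, hz, α.apply_symm_apply z⟩
  rw [h3, mem_R_iff hm hv one_ne_zero, mem_R_iff hm hv' hc', hiff]
  have e1 : α.symm z = 1 ↔ z = 1 := by
    rw [MulEquiv.symm_apply_eq, map_one]
  have e2 : π (spT v 1) * α.symm z = α.symm (π (spT v' c') * z) := by
    rw [map_mul, ← h, α.symm_apply_apply]
  rw [e2, hiff, e1]
  have e3 : α.symm (π (spT v' c') * z) = 1 ↔ π (spT v' c') * z = 1 := by
    rw [MulEquiv.symm_apply_eq, map_one]
  rw [e3]

/-- in characteristic two all transvections are conjugate -/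
theorem TT_conj [Finite F] [CharP F 2] (hm : 1 ≤ m) {z z' : Cfsg.PSp m F} (hz : z ∈ TT m F) (hz' : z' ∈ TT m F) : ∃ k, z' = k * z * k⁻¹ := by
  have key : ∀ z, z ∈ TT m F → ∃ w : V, w ≠ 0 ∧ z = π (spT w 1) := by
    rintro _ ⟨w, c, hw, hc, rfl⟩
    obtain ⟨d, hd⟩ : ∃ d : F, d ^ 2 = c := by
      haveI : Fact (Nat.Prime 2) := ⟨Nat.prime_two⟩
      haveI : Fintype F := Fintype.ofFinite F
      obtain ⟨d, hd⟩ := (bijective_frobenius F 2).surjective c
      exact ⟨d, hd⟩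
    have hd0 : d ≠ 0 := by
      rintro rfl
      apply hc
      rw [← hd]; simp
    refine ⟨d • w, smul_ne_zero hd0 hw, ?_⟩
    congr 1
    apply lin_ext
    intro x
    rw [tr_apply, tr_apply, map_smul, smul_eq_mul, one_mul, smul_smul, ← hd]
    congr 2
    ring
  obtain ⟨v, hv, rfl⟩ := key z hz
  obtain ⟨w, hw, rfl⟩ := key z' hz'
  obtain ⟨g, hg⟩ := sp_transitive v w hv hw
  have hg' : spToLin g v = w := hg
  refine ⟨π g, ?_⟩
  rw [← map_inv, ← map_mul, ← map_mul, spT_conj, ← spToLin_apply, hg']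

theorem form_of_fix [Finite F] [CharP F 2] (hm : 2 ≤ m) (α : MulAut (Cfsg.PSp m F)) {z : Cfsg.PSp m F} (hz : z ∈ TT m F) (h : α z ∈ TT m F) :
    ∃ (g : Cfsg.GSp m F) (σ : F ≃+* F), α = rho m F g * phi m σ := by
  haveI : Fact (Nat.Prime 2) := ⟨Nat.prime_two⟩
  have hcl : ∀ k z, z ∈ TT m F → k * z * k⁻¹ ∈ TT m F := by
    rintro k _ ⟨w, c, hw, hc, rfl⟩
    obtain ⟨g, rfl⟩ := QuotientGroup.mk'_surjective _ k
    refine ⟨spToLin g w, c, fun h => hw ((LinearEquiv.map_eq_zero_iff _).1 h), hc, ?_⟩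
    rw [← map_inv, ← map_mul, ← map_mul, spT_conj, spToLin_apply]
  have h1 : ∀ z', z' ∈ TT m F → α z' ∈ TT m F := by
    intro z' hz'
    obtain ⟨k, rfl⟩ := TT_conj (by omega : 1 ≤ m) hz hz'
    rw [map_mul, map_mul, map_inv]
    exact hcl _ _ h
  have h2 : ∀ z', z' ∈ TT m F → α.symm z' ∈ TT m F := by
    intro z' hz'
    obtain ⟨k, hk⟩ := TT_conj (by omega : 1 ≤ m) h hz'
    have : α.symm z' = α.symm k * z * (α.symm k)⁻¹ := by
      rw [hk, map_mul, map_mul, map_inv, MulEquiv.symm_apply_apply]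
    rw [this]
    exact hcl _ _ hz
  obtain ⟨g, σ, hg, h3⟩ := main_of (p := 2) hm α (fun v hv => map_R_of_TT (by omega) α h1 h2 hv)
    (fun v hv => map_R_of_TT (by omega) α.symm h2 (by rwa [α.symm_symm]) hv)
  exact ⟨⟨g, hg⟩, σ, (isInd_iff hg σ α).1 h3⟩

/-- an automorphism of odd order of `PSp_4(2^f)` -/
theorem form_of_odd {F : Type*} [Field F] [Fintype F] [CharP F 2] (x : MulAut (Cfsg.PSp 2 F)) {n : ℕ} (hn : Odd n) (hx : x ^ n = 1) :
    ∃ (g : Cfsg.GSp 2 F) (σ : F ≃+* F), x = rho 2 F g * phi 2 σ := by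
  haveI : Fact (Nat.Prime 2) := ⟨Nat.prime_two⟩
  obtain ⟨f, hf⟩ := FiniteField.card F 2
  obtain ⟨hcyc, hcard⟩ := Cfsg.Agent.H22.Cv.out_psp_four (F := F) (f := f) f.2 hf.2
  have hgal := (CfsgLib.AutPSL27.ringAut_cyclic 2 f (F := F) (by rw [Nat.card_eq_fintype_card, hf.2])).2
  obtain ⟨j, hj⟩ : ∃ j : (F ≃+* F) →* Cfsg.Out (Cfsg.PSp 2 F), ∀ σ, j σ = QuotientGroup.mk (phi 2 σ) :=
    ⟨(QuotientGroup.mk' (Cfsg.Inn (Cfsg.PSp 2 F))).comp ((CfsgLib.AutPSL27.lft (G := Matrix.symplecticGroup (Fin 2) F)).comp fS), fun σ => rfl⟩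
  have hinj : Function.Injective j := by
    rw [injective_iff_map_eq_one]
    intro σ hσ
    rw [hj] at hσ
    obtain ⟨g, hg⟩ := inn_le ((QuotientGroup.eq_one_iff _).1 hσ)
    refine (unique_one (p := 2) (by omega : 1 ≤ 2) (g := g⁻¹) (σ := σ) ?_).1
    rw [map_inv, hg, inv_mul_cancel]
  have h1 : Nat.card j.range = f := by
    rw [← hgal]
    exact (Nat.card_congr (MonoidHom.ofInjective hinj).toEquiv).symm
  haveI : Finite (Cfsg.Out (Cfsg.PSp 2 F)) := by
    apply Nat.finite_of_card_ne_zero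
    rw [hcard]
    exact (Nat.mul_pos (by norm_num) f.2).ne'
  have hidx : j.range.index = 2 := by
    have h2 := Subgroup.card_mul_index j.range
    rw [h1, hcard] at h2
    have h3 : 0 < (f : ℕ) := f.2
    apply Nat.eq_of_mul_eq_mul_left h3
    rw [h2]; ring
  have h2 : (QuotientGroup.mk x : Cfsg.Out (Cfsg.PSp 2 F)) ∈ j.range := by
    obtain ⟨k, hk⟩ := hn
    have h3 : (QuotientGroup.mk x : Cfsg.Out (Cfsg.PSp 2 F)) ^ (2 * k + 1) = 1 := by
      rw [← hk, ← QuotientGroup.mk_pow, hx]; rfl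
    have h4 : ((QuotientGroup.mk x : Cfsg.Out (Cfsg.PSp 2 F)) ^ 2) ∈ j.range := Subgroup.sq_mem_of_index_two hidx _
    have h5 : (QuotientGroup.mk x : Cfsg.Out (Cfsg.PSp 2 F)) = (((QuotientGroup.mk x : Cfsg.Out (Cfsg.PSp 2 F)) ^ 2) ^ k)⁻¹ := by
      rw [pow_succ, pow_mul] at h3
      exact eq_inv_of_mul_eq_one_right h3
    rw [h5]
    exact j.range.inv_mem (j.range.pow_mem h4 k)
  obtain ⟨σ, hσ⟩ := h2
  rw [hj] at hσ
  have h3 : x * (phi 2 σ)⁻¹ ∈ Cfsg.Inn (Cfsg.PSp 2 F) := by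
    rw [← QuotientGroup.eq_one_iff, QuotientGroup.mk_mul, QuotientGroup.mk_inv]
    rw [← hσ, mul_inv_cancel]
  obtain ⟨g, hg⟩ := inn_le h3
  exact ⟨g, σ, by rw [hg, inv_mul_cancel_right]⟩

end CfsgLib.AutPSp27
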