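import Cfsg.Agent.EqBase
import Cfsg.Agent.LibBGCop

open Subgroup
open scoped Pointwise commutatorElement

namespace CfsgLib.BGPi

open Cfsg

universe u

section
variable {G : Type u} [Group G] [Finite G]

theorem card_prime_zpowers {N : Subgroup G} {p : ℕ} (hp : p.Prime) (hN : Nat.card N = p) {s : G}
    (hs : s ∈ N) (hs1 : s ≠ 1) : zpowers s = N := by
  have h1 : zpowers s ≤ N := zpowers_le.2 hs
  refine Subgroup.eq_of_le_of_card_ge h1 ?_
  have h2 : Nat.card (zpowers s) ∣ p := hN ▸ Subgroup.card_dvd_of_le h1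
  rcases (Nat.dvd_prime hp).1 h2 with h | h
  · exfalso
    apply hs1
    have h3 := Subgroup.card_eq_one.1 h
    exact Subgroup.mem_bot.1 (h3 ▸ mem_zpowers s)
  · rw [h, hN]

theorem red {p : ℕ} (hp : p.Prime) {R N : Subgroup G} (hR : IsPGroup p R)
    (hcN : Nat.card N = p) (hRR : ∀ x ∈ R, ∀ y ∈ R, y⁻¹ * x⁻¹ * y * x ∈ N)
    (hNc : ∀ x ∈ R, ∀ n ∈ N, n * x = x * n) (hel : ∀ x ∈ R, x ^ p = 1 → x ∈ N)
    (hnc : ∃ x ∈ R, ∃ y ∈ R, x * y ≠ y * x) :
    p = 2 ∧ ∃ x ∈ R, ∃ y ∈ R, x * y ≠ y * x ∧ x ^ 4 = 1 ∧ y ^ 4 = 1 := by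
  classical
  haveI := Fact.mk hp
  have hNp : ∀ n ∈ N, n ^ p = 1 := by
    intro n hn
    have h := pow_card_eq_one' (G := N) (x := ⟨n, hn⟩)
    rw [hcN] at h
    exact congrArg Subtype.val h
  have hex : ∃ n, ∃ x ∈ R, ∃ y ∈ R, x * y ≠ y * x ∧ orderOf y ≤ orderOf x ∧
      orderOf x + orderOf y = n := by
    obtain ⟨x, hx, y, hy, h⟩ := hnc
    rcases le_total (orderOf y) (orderOf x) with h1 | h1
    · exact ⟨_, x, hx, y, hy, h, h1, rfl⟩
    · exact ⟨_, y, hy, x, hx, fun h2 => h h2.symm, h1, rfl⟩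
  obtain ⟨x, hx, y, hy, hxy, hle, hn⟩ := Nat.find_spec hex
  have hmin : ∀ w ∈ R, x * w ≠ w * x → orderOf w < orderOf y → False := by
    intro w hw hxw hlt
    refine Nat.find_min hex (m := orderOf x + orderOf w) (by rw [← hn]; omega)
      ⟨x, hx, w, hw, hxw, by omega, rfl⟩
  obtain ⟨a, ha⟩ := (IsPGroup.iff_orderOf.1 hR) ⟨x, hx⟩
  obtain ⟨b, hb⟩ := (IsPGroup.iff_orderOf.1 hR) ⟨y, hy⟩
  rw [Subgroup.orderOf_mk] at ha hb
  have hb2 : 2 ≤ b := by
    by_contra hcon
    have h1 : y ^ p = 1 := by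
      apply orderOf_dvd_iff_pow_eq_one.1
      rw [hb]
      have h2 : b ≤ 1 := by omega
      calc p ^ b ∣ p ^ 1 := pow_dvd_pow p h2
        _ = p := pow_one p
    exact hxy (hNc x hx y (hel y hy h1)).symm
  have hab : b ≤ a := by
    rw [ha, hb] at hle
    exact (Nat.pow_le_pow_iff_right hp.one_lt).1 hle
  set n := p ^ (b - 1) with hnn
  have hpb : p ^ b = n * p := by
    rw [hnn, ← pow_succ]; congr 1; omega
  set u := x ^ (p ^ (a - b)) with hu
  have hun : u ^ n = x ^ (p ^ (a - 1)) := by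
    rw [hu, ← pow_mul, hnn, ← pow_add]; congr 2; omega
  have hs1 : u ^ n ≠ 1 := by
    rw [hun]
    intro h
    have h1 := orderOf_dvd_of_pow_eq_one h
    rw [ha] at h1
    have h2 := (Nat.pow_dvd_pow_iff_le_right hp.one_lt).1 h1
    omega
  have huR : u ∈ R := R.pow_mem hx _
  have hsN : u ^ n ∈ N := by
    refine hel _ (R.pow_mem huR _) ?_
    rw [hun, ← pow_mul, ← pow_succ, ← orderOf_dvd_iff_pow_eq_one, ha]
    exact pow_dvd_pow p (by omega)
  have htN : y ^ n ∈ N := by
    refine hel _ (R.pow_mem hy _) ?_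
    rw [← pow_mul, ← hpb, ← hb]
    exact pow_orderOf_eq_one y
  obtain ⟨k, hk⟩ : ∃ k : ℕ, (u ^ n) ^ k = y ^ n := by
    have h1 : y ^ n ∈ zpowers (u ^ n) := by
      rw [card_prime_zpowers hp hcN hsN hs1]; exact htN
    exact (mem_powers_iff_mem_zpowers.2 h1)
  set v := (u ^ k)⁻¹ with hv
  have hvR : v ∈ R := R.inv_mem (R.pow_mem huR _)
  set z := y⁻¹ * v⁻¹ * y * v with hz
  have hzN : z ∈ N := hRR v hvR y hy
  have hzz : y * v = v * y * z := by rw [hz]; group
  have hvn : v ^ n = (y ^ n)⁻¹ := by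
    rw [hv, inv_pow, ← hk]
    congr 1
    exact pow_right_comm u k n
  have hw := mul_pow_class2 hzz (hNc v hvR z hzN) (hNc y hy z hzN) n
  rw [hvn, inv_mul_cancel, one_mul] at hw
  have hwR : v * y ∈ R := R.mul_mem hvR hy
  have hvx : x * v = v * x := by
    have h1 : Commute x v := by
      rw [hv, hu]
      exact (((Commute.refl x).pow_right _).pow_right _).inv_right
    exact h1
  have hxw : x * (v * y) ≠ (v * y) * x := by
    intro h
    apply hxy
    have h1 : v * (x * y) = v * (y * x) := by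
      rw [← mul_assoc, ← hvx, mul_assoc, h, mul_assoc]
    exact mul_left_cancel h1
  have hfin : z ^ (n * (n - 1) / 2) = 1 → False := by
    intro h
    rw [h] at hw
    refine hmin _ hwR hxw ?_
    have h1 : orderOf (v * y) ≤ n := Nat.le_of_dvd (pow_pos hp.pos _)
      (orderOf_dvd_of_pow_eq_one hw)
    rw [hb, hpb]
    have h2 := hp.one_lt
    have h3 : 0 < n := pow_pos hp.pos _
    nlinarith
  have hdvd : p ∣ n * (n - 1) / 2 → False := by
    rintro ⟨c, hc⟩
    apply hfin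
    rw [hc, pow_mul, hNp z hzN, one_pow]
  have hpn : n = p ^ (b - 2) * p := by
    rw [hnn, ← pow_succ]; congr 1; omega
  have hp2 : p = 2 := by
    by_contra hp2
    apply hdvd
    have hodd : Odd n := (hp.odd_of_ne_two hp2).pow
    obtain ⟨j, hj⟩ := hodd
    have h1 : n * (n - 1) / 2 = n * j := by
      have h2 : n - 1 = 2 * j := by omega
      rw [h2]
      have h3 : n * (2 * j) = 2 * (n * j) := by ring
      rw [h3, Nat.mul_div_cancel_left _ (by norm_num)]
    rw [h1, hpn]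
    exact Dvd.dvd.mul_right (Dvd.intro_left _ rfl) _
  subst hp2
  have hb3 : b = 2 := by
    by_contra hb3
    apply hdvd
    have h1 : n = 2 * (2 ^ (b - 3) * 2) := by
      rw [hpn]
      have h2 : (2 : ℕ) ^ (b - 2) = 2 ^ (b - 3) * 2 := by rw [← pow_succ]; congr 1; omega
      rw [h2]; ring
    have h2 : n * (n - 1) / 2 = 2 ^ (b - 3) * 2 * (n - 1) := by
      have h3 : n * (n - 1) = 2 * (2 ^ (b - 3) * 2 * (n - 1)) := by
        calc n * (n - 1) = (2 * (2 ^ (b - 3) * 2)) * (n - 1) := by rw [← h1]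
          _ = _ := by ring
      rw [h3, Nat.mul_div_cancel_left _ (by norm_num)]
    rw [h2]
    exact Dvd.dvd.mul_right (Dvd.intro_left _ rfl) _
  have hy4 : y ^ 4 = 1 := by
    have h1 := pow_orderOf_eq_one y
    rw [hb, hb3] at h1
    exact h1
  have ha2 : a = 2 := by
    by_contra ha2
    apply hfin
    -- `x ^ 2` commutes with `y`
    have h1 : Commute y (x ^ 2) := by
      set c := y⁻¹ * x⁻¹ * y * x with hc
      have hcN' : c ∈ N := hRR x hx y hy
      have hc2 : c * c = 1 := by have := hNp c hcN'; rwa [pow_two] at this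
      have h2 : y * x = x * y * c := by rw [hc]; group
      have h3 : c * x = x * c := hNc x hx c hcN'
      show y * x ^ 2 = x ^ 2 * y
      calc y * x ^ 2 = (y * x) * x := by rw [pow_two, mul_assoc]
        _ = x * y * (c * x) := by rw [h2]; group
        _ = x * (y * x) * c := by rw [h3]; group
        _ = x * x * y * (c * c) := by rw [h2]; group
        _ = x ^ 2 * y := by rw [hc2, mul_one, pow_two]
    have h2 : Commute y u := by
      have h3 : u = (x ^ 2) ^ (2 ^ (a - 3)) := by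
        rw [hu, ← pow_mul, ← pow_succ']; congr 2; omega
      rw [h3]
      exact h1.pow_right _
    have h4 : Commute y v := by rw [hv]; exact (h2.pow_right _).inv_right
    have h5 : z = 1 := by
      rw [hz]
      have h6 : y * v = v * y := h4
      calc y⁻¹ * v⁻¹ * y * v = y⁻¹ * v⁻¹ * (y * v) := by group
        _ = 1 := by rw [h6]; group
    rw [h5, one_pow]
  refine ⟨rfl, x, hx, y, hy, hxy, ?_, hy4⟩
  have h1 := pow_orderOf_eq_one x
  rw [ha, ha2] at h1
  exact h1

end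

end CfsgLib.BGPi
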