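import Cfsg.Agent.EqBase
import Cfsg.Agent.LibBGRepC
import Cfsg.Agent.LibBGCop
import Cfsg.Agent.LibBGRel

/-! Relative forms (inside a group) of the results of `LibBGRepC`. -/

open scoped BigOperators
open Module

namespace CfsgLib.BGRep

variable {G : Type*} [Group G]

/-- the conjugation action of `E` on `V` -/
def actN {E V : Subgroup G} (h : E ≤ Subgroup.normalizer (V : Set G)) : E →* MulAut V :=
  (V.normalizerMonoidHom).comp (Subgroup.inclusion h)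

theorem actN_coe {E V : Subgroup G} (h : E ≤ Subgroup.normalizer (V : Set G)) (x : E) (v : V) :
    ((actN h x v : V) : G) = x * v * (x : G)⁻¹ := rfl

theorem actN_eq_iff {E V : Subgroup G} (h : E ≤ Subgroup.normalizer (V : Set G)) (x : E) (v : V) :
    actN h x v = v ↔ (x : G) * v = v * x := by
  rw [Subtype.ext_iff, actN_coe, mul_inv_eq_iff_eq_mul]

theorem frob_rel [Finite G] {p r : ℕ} [Fact p.Prime] (hr : 0 < r) {V K : Subgroup G} {ρ : G}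
    (hVc : ∀ a ∈ V, ∀ b ∈ V, a * b = b * a) (hVp : ∀ v ∈ V, v ^ p = 1) (hKp : ¬ p ∣ Nat.card K)
    (hn : ρ ∈ Subgroup.normalizer (K : Set G)) (hpw : ρ ^ r = 1)
    (hKV : K ≤ Subgroup.normalizer (V : Set G)) (hρV : ρ ∈ Subgroup.normalizer (V : Set G))
    (hfpf : ∀ i, 0 < i → i < r → ∀ x ∈ K, ρ ^ i * x * (ρ ^ i)⁻¹ = x → x = 1)
    (hK : ∀ v ∈ V, (∀ x ∈ K, x * v = v * x) → v = 1)
    (hfix : ∀ v ∈ V, ρ * v = v * ρ → v = 1) : V = ⊥ := by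
  have hE : K ⊔ Subgroup.zpowers ρ ≤ Subgroup.normalizer (V : Set G) :=
    sup_le hKV (Subgroup.zpowers_le.2 hρV)
  letI : CommGroup V := { (inferInstance : Group V) with
    mul_comm := fun a b => Subtype.ext (hVc a a.2 b b.2) }
  have hρE : ρ ∈ K ⊔ Subgroup.zpowers ρ :=
    (le_sup_right : _ ≤ K ⊔ Subgroup.zpowers ρ) (Subgroup.mem_zpowers ρ)
  have hKE : K ≤ K ⊔ Subgroup.zpowers ρ := le_sup_left
  have h0 := frob_grp (V := V) (actN hE) (p := p) (K := K.subgroupOf (K ⊔ Subgroup.zpowers ρ))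
    (ρ := ⟨ρ, hρE⟩) (r := r) (fun v => Subtype.ext (hVp v v.2)) hr ?_ ?_ ?_ ?_ ?_ ?_
  · rw [eq_bot_iff]
    intro v hv
    exact congrArg Subtype.val (h0 ⟨v, hv⟩)
  · rwa [Nat.card_congr (Subgroup.subgroupOfEquivOfLe hKE).toEquiv]
  · rw [Subgroup.mem_normalizer_iff]
    intro x
    exact Subgroup.mem_normalizer_iff.1 hn x
  · exact Subtype.ext hpw
  · intro i hi hir x hx hxx
    exact Subtype.ext (hfpf i hi hir x hx (congrArg Subtype.val hxx))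
  · intro v hv
    refine Subtype.ext (hK v v.2 fun x hx => ?_)
    exact (actN_eq_iff hE ⟨x, hKE hx⟩ v).1 (hv ⟨x, hKE hx⟩ hx)
  · intro v hv
    exact Subtype.ext (hfix v v.2 ((actN_eq_iff hE ⟨ρ, hρE⟩ v).1 hv))

theorem ext_rel [Finite G] {p r : ℕ} [Fact p.Prime] (hr : r.Prime) (hrp : r ≠ p)
    {V K Z : Subgroup G} {ρ : G}
    (hVc : ∀ a ∈ V, ∀ b ∈ V, a * b = b * a) (hVp : ∀ v ∈ V, v ^ p = 1) (hKp : ¬ p ∣ Nat.card K)
    (hZK : Z ≤ K) (hcenK : ∀ z ∈ Z, ∀ x ∈ K, z * x = x * z) (hcenρ : ∀ z ∈ Z, z * ρ = ρ * z)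
    (hn : ρ ∈ Subgroup.normalizer (K : Set G)) (hpw : ρ ^ r = 1)
    (hKV : K ≤ Subgroup.normalizer (V : Set G)) (hρV : ρ ∈ Subgroup.normalizer (V : Set G))
    (hfpf : ∀ i, 0 < i → i < r → ∀ x ∈ K, ρ ^ i * x * (ρ ^ i)⁻¹ * x⁻¹ ∈ Z → x ∈ Z)
    (hcomm : ∀ x ∈ K, ∀ y ∈ K, y * x * y⁻¹ * x⁻¹ ∈ Z) {z₀ : G} (hz₀ : z₀ ∈ Z)
    (hz₀1 : ∃ v ∈ V, z₀ * v ≠ v * z₀)
    (hnd : ∀ x ∈ K, x ∉ Z → ∀ N : Subgroup G, N ≤ Z → z₀ ∉ N → ∃ y ∈ K, y * x * y⁻¹ * x⁻¹ ∉ N)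
    (hfix : ∀ v ∈ V, ρ * v = v * ρ → v = 1) :
    ∃ D : ℕ, D ^ 2 * Nat.card Z = Nat.card K ∧ (D = 1 ∨ D + 1 = r) := by
  have hE : K ⊔ Subgroup.zpowers ρ ≤ Subgroup.normalizer (V : Set G) :=
    sup_le hKV (Subgroup.zpowers_le.2 hρV)
  letI : CommGroup V := { (inferInstance : Group V) with
    mul_comm := fun a b => Subtype.ext (hVc a a.2 b b.2) }
  have hρE : ρ ∈ K ⊔ Subgroup.zpowers ρ :=
    (le_sup_right : _ ≤ K ⊔ Subgroup.zpowers ρ) (Subgroup.mem_zpowers ρ)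
  have hKE : K ≤ K ⊔ Subgroup.zpowers ρ := le_sup_left
  have hZE : Z ≤ K ⊔ Subgroup.zpowers ρ := hZK.trans hKE
  have hcK : Nat.card (K.subgroupOf (K ⊔ Subgroup.zpowers ρ)) = Nat.card K :=
    Nat.card_congr (Subgroup.subgroupOfEquivOfLe hKE).toEquiv
  have hcZ : Nat.card (Z.subgroupOf (K ⊔ Subgroup.zpowers ρ)) = Nat.card Z :=
    Nat.card_congr (Subgroup.subgroupOfEquivOfLe hZE).toEquiv
  have h0 := ext_grp (V := V) (actN hE) (p := p) (K := K.subgroupOf (K ⊔ Subgroup.zpowers ρ))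
    (Z := Z.subgroupOf (K ⊔ Subgroup.zpowers ρ))
    (ρ := ⟨ρ, hρE⟩) (r := r) (fun v => Subtype.ext (hVp v v.2)) hr hrp ?_ ?_ ?_ ?_ ?_ ?_ ?_ ?_
    (z₀ := ⟨z₀, hZE hz₀⟩) ?_ ?_ ?_ ?_
  · rwa [hcK, hcZ] at h0
  · rwa [hcK]
  · intro x hx; exact hZK hx
  · rintro z hz ⟨x, hx⟩
    apply Subtype.ext
    show (z : G) * x = x * z
    have h1 : K ⊔ Subgroup.zpowers ρ ≤ Subgroup.centralizer ({(z : G)} : Set G) := by
      rw [sup_le_iff, Subgroup.zpowers_le]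
      refine ⟨fun y hy => ?_, ?_⟩
      · rw [Subgroup.mem_centralizer_singleton_iff]
        exact (hcenK z hz y hy).symm
      · rw [Subgroup.mem_centralizer_singleton_iff]
        exact (hcenρ z hz).symm
    have h2 := h1 hx
    rw [Subgroup.mem_centralizer_singleton_iff] at h2
    exact h2.symm
  · rw [eq_top_iff]
    intro x _
    have h1 : (K ⊔ Subgroup.zpowers ρ).subgroupOf (K ⊔ Subgroup.zpowers ρ) = ⊤ :=
      Subgroup.subgroupOf_self _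
    rw [Subgroup.subgroupOf_sup hKE le_sup_right] at h1
    have h2 : (Subgroup.zpowers ρ).subgroupOf (K ⊔ Subgroup.zpowers ρ) =
        Subgroup.zpowers ⟨ρ, hρE⟩ := by
      ext y
      rw [Subgroup.mem_subgroupOf, Subgroup.mem_zpowers_iff, Subgroup.mem_zpowers_iff]
      constructor
      · rintro ⟨n, hn⟩; exact ⟨n, Subtype.ext hn⟩
      · rintro ⟨n, hn⟩; exact ⟨n, congrArg Subtype.val hn⟩
    rw [h2] at h1
    rw [h1]; trivial
  · rw [Subgroup.mem_normalizer_iff]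
    intro x
    exact Subgroup.mem_normalizer_iff.1 hn x
  · exact Subtype.ext hpw
  · intro i hi hir x hx hxx
    exact hfpf i hi hir x hx hxx
  · intro x hx y hy
    exact hcomm x hx y hy
  · exact hz₀
  · obtain ⟨v, hv, hvz⟩ := hz₀1
    intro h
    apply hvz
    have h1 := (actN_eq_iff hE ⟨z₀, hZE hz₀⟩ ⟨v, hv⟩).1 (by rw [h]; rfl)
    exact h1
  · intro x hx hxZ N hN hzN
    obtain ⟨y, hy, hyN⟩ := hnd x hx hxZ (N.map (K ⊔ Subgroup.zpowers ρ).subtype) (by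
      rintro _ ⟨n, hn, rfl⟩; exact hN hn) (by
      rintro ⟨n, hn, he⟩
      apply hzN
      have : n = ⟨z₀, hZE hz₀⟩ := Subtype.ext he
      rwa [← this])
    refine ⟨⟨y, hKE hy⟩, hy, fun h => hyN ⟨_, h, rfl⟩⟩
  · intro v hv
    exact Subtype.ext (hfix v v.2 ((actN_eq_iff hE ⟨ρ, hρE⟩ v).1 hv))

end CfsgLib.BGRep
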