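import Cfsg.Agent.EqBase
import Cfsg.Agent.LibBGRepD

/-! Actions of groups of prime order (B & G section 3). -/

open scoped Pointwise commutatorElement
open Subgroup Cfsg

namespace CfsgLib.BGPi

variable {G : Type*} [Group G]

theorem comm_closure_le {N : Subgroup G} {S T : Set G} (hS : ∀ s ∈ S, s ∈ 𝓝(N))
    (hT : ∀ t ∈ T, t ∈ 𝓝(N)) (h : ∀ s ∈ S, ∀ t ∈ T, ⁅s, t⁆ ∈ N) :
    ⁅Subgroup.closure S, Subgroup.closure T⁆ ≤ N := by
  have h1 : ∀ s t t' : G, s ∈ 𝓝(N) → t ∈ 𝓝(N) → ⁅s, t⁆ ∈ N → ⁅s, t'⁆ ∈ N → ⁅s, t * t'⁆ ∈ N := by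
    intro s t t' hs ht h1 h2
    have : ⁅s, t * t'⁆ = ⁅s, t⁆ * (t * ⁅s, t'⁆ * t⁻¹) := by
      simp only [commutatorElement_def]; group
    rw [this]
    exact N.mul_mem h1 ((Subgroup.mem_normalizer_iff.1 ht _).1 h2)
  have h2 : ∀ s t : G, s ∈ 𝓝(N) → t ∈ 𝓝(N) → ⁅s, t⁆ ∈ N → ⁅s, t⁻¹⁆ ∈ N := by
    intro s t hs ht h1
    have : ⁅s, t⁻¹⁆ = t⁻¹ * ⁅s, t⁆⁻¹ * t := by
      simp only [commutatorElement_def]; group
    rw [this]
    have h3 := (Subgroup.mem_normalizer_iff.1 ((𝓝(N)).inv_mem ht) ⁅s, t⁆⁻¹).1 (N.inv_mem h1)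
    simpa using h3
  have h3 : ∀ s ∈ 𝓝(N), (∀ t ∈ T, ⁅s, t⁆ ∈ N) → ∀ t ∈ Subgroup.closure T, ⁅s, t⁆ ∈ N := by
    intro s hs hsT t ht
    have h4 : t ∈ 𝓝(N) ∧ ⁅s, t⁆ ∈ N := by
      induction ht using Subgroup.closure_induction with
      | mem x hx => exact ⟨hT x hx, hsT x hx⟩
      | one => exact ⟨one_mem _, by rw [commutatorElement_one_right]; exact one_mem _⟩
      | mul x y _ _ hx hy => exact ⟨mul_mem hx.1 hy.1, h1 s x y hs hx.1 hx.2 hy.2⟩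
      | inv x _ hx => exact ⟨inv_mem hx.1, h2 s x hs hx.1 hx.2⟩
    exact h4.2
  rw [Subgroup.commutator_le]
  intro s hs t ht
  have hTN : Subgroup.closure T ≤ 𝓝(N) := (Subgroup.closure_le _).2 hT
  have h4 : s ∈ 𝓝(N) ∧ ⁅s, t⁆ ∈ N := by
    induction hs using Subgroup.closure_induction with
    | mem x hx => exact ⟨hS x hx, h3 x (hS x hx) (h x hx) t ht⟩
    | one => exact ⟨one_mem _, by rw [commutatorElement_one_left]; exact one_mem _⟩
    | mul x y _ _ hx hy =>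
      refine ⟨mul_mem hx.1 hy.1, ?_⟩
      have h5 := h1 t x y (hTN ht) hx.1 (by rw [← commutatorElement_inv]; exact N.inv_mem hx.2)
        (by rw [← commutatorElement_inv]; exact N.inv_mem hy.2)
      rw [← commutatorElement_inv]; exact N.inv_mem h5
    | inv x _ hx =>
      refine ⟨inv_mem hx.1, ?_⟩
      have h5 := h2 t x (hTN ht) hx.1 (by rw [← commutatorElement_inv]; exact N.inv_mem hx.2)
      rw [← commutatorElement_inv]; exact N.inv_mem h5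
  exact h4.2

theorem comm_zpowers_le {N : Subgroup G} {x y : G} (hx : x ∈ 𝓝(N)) (hy : y ∈ 𝓝(N))
    (h : ⁅x, y⁆ ∈ N) : ⁅Subgroup.zpowers x, Subgroup.zpowers y⁆ ≤ N := by
  rw [Subgroup.zpowers_eq_closure, Subgroup.zpowers_eq_closure]
  apply comm_closure_le
  · rintro s rfl; exact hx
  · rintro s rfl; exact hy
  · rintro s rfl t rfl; exact h

/-- in a group of prime order every nontrivial element generates -/
theorem zpowers_of_prime {R : Subgroup G} (hR : (Nat.card R).Prime) {x : G} (hx : x ∈ R)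
    (hx1 : x ≠ 1) : Subgroup.zpowers x = R := by
  have hle : Subgroup.zpowers x ≤ R := Subgroup.zpowers_le.2 hx
  haveI : Finite R := Nat.finite_of_card_ne_zero hR.ne_zero
  apply SetLike.coe_injective
  apply Set.eq_of_subset_of_ncard_le hle _ (Set.toFinite _)
  have h1 : Nat.card (Subgroup.zpowers x) ∣ Nat.card R := Subgroup.card_dvd_of_le hle
  rcases (Nat.dvd_prime hR).1 h1 with h2 | h2
  · exfalso
    rw [Nat.card_zpowers, orderOf_eq_one_iff] at h2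
    exact hx1 h2
  · exact h2.ge

theorem fpf_of_cz [Finite G] {r : ℕ} (hr : r.Prime) {K Z R : Subgroup G} {ρ : G}
    (hR : Nat.card R = r) (hρ : R = Subgroup.zpowers ρ) (hRK : R ≤ 𝓝(K))
    (hcop : (Nat.card R).Coprime (Nat.card K)) (hKs : Group.IsSolvable K)
    (hZK : Z ≤ K) (hKZ : K ≤ 𝓝(Z)) (hRZ : R ≤ 𝓝(Z)) (hC : K ⊓ 𝓒(R) ≤ Z) :
    ∀ i, 0 < i → i < r → ∀ x ∈ K, ρ ^ i * x * (ρ ^ i)⁻¹ * x⁻¹ ∈ Z → x ∈ Z := by
  intro i hi hir x hx hxZ
  have hρR : ρ ∈ R := by rw [hρ]; exact Subgroup.mem_zpowers ρ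
  have hord : orderOf ρ = r := by rw [← Nat.card_zpowers, ← hρ, hR]
  have hi1 : ρ ^ i ≠ 1 := pow_ne_one_of_lt_orderOf hi.ne' (hord ▸ hir)
  have hgen : Subgroup.zpowers (ρ ^ i) = R :=
    zpowers_of_prime (hR ▸ hr) (R.pow_mem hρR i) hi1
  have h1 : ⁅Subgroup.zpowers x, R⁆ ≤ Z := by
    rw [← hgen]
    apply comm_zpowers_le (hKZ hx) (hRZ (R.pow_mem hρR i))
    rw [← commutatorElement_inv]
    exact Z.inv_mem hxZ
  have h2 := cop_quot_cz hRK hcop hKs hZK hRZ (Subgroup.zpowers_le.2 hx)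
    (Subgroup.zpowers_le.2 (hKZ hx)) h1
  have h3 := h2 (Subgroup.mem_zpowers x)
  rwa [sup_eq_left.2 hC] at h3

end CfsgLib.BGPi
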