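import Cfsg.Agent.EqBase
import Cfsg.Agent.LibBGRepE

/-! Sections of a group: images of subgroups of `N_G(N)` in `N_G(N)/N`. -/

open scoped Pointwise commutatorElement
open Subgroup Cfsg

namespace CfsgLib.BGPi

universe u
variable {G : Type u} [Group G] [Finite G]

/-- the quotient `N_G(N) / N` -/
abbrev QN (N : Subgroup G) : Type u := ↥(𝓝(N)) ⧸ (N.subgroupOf 𝓝(N))

/-- the image of `A` in `N_G(N) / N` -/
def qm (N A : Subgroup G) : Subgroup (QN N) :=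
  (A.subgroupOf 𝓝(N)).map (QuotientGroup.mk' (N.subgroupOf 𝓝(N)))

variable {N A B : Subgroup G}

/-- the class of an element -/
def qe (N : Subgroup G) {x : G} (hx : x ∈ 𝓝(N)) : QN N := QuotientGroup.mk' _ (⟨x, hx⟩ : ↥𝓝(N))

theorem qe_mul {x y : G} (hx : x ∈ 𝓝(N)) (hy : y ∈ 𝓝(N)) :
    qe N (mul_mem hx hy) = qe N hx * qe N hy := rfl

theorem qe_inv {x : G} (hx : x ∈ 𝓝(N)) : qe N (inv_mem hx) = (qe N hx)⁻¹ := rfl

theorem qe_eq_one {x : G} (hx : x ∈ 𝓝(N)) : qe N hx = 1 ↔ x ∈ N := by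
  show ((⟨x, hx⟩ : ↥𝓝(N)) : QN N) = 1 ↔ _
  rw [QuotientGroup.eq_one_iff, mem_subgroupOf]

theorem qe_mem {x : G} (hx : x ∈ 𝓝(N)) (hxA : x ∈ A) : qe N hx ∈ qm N A :=
  mem_map_of_mem _ (mem_subgroupOf.2 hxA)

theorem mem_qm {y : QN N} : y ∈ qm N A ↔ ∃ x, ∃ hx : x ∈ 𝓝(N), x ∈ A ∧ qe N hx = y := by
  constructor
  · rintro ⟨⟨x, hx⟩, hxA, rfl⟩
    exact ⟨x, hx, hxA, rfl⟩
  · rintro ⟨x, hx, hxA, rfl⟩
    exact qe_mem hx hxA

theorem qe_mem_iff (hB : B ≤ 𝓝(N)) {x : G} (hx : x ∈ 𝓝(N)) : qe N hx ∈ qm N B ↔ x ∈ B ⊔ N := by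
  constructor
  · intro h
    obtain ⟨y, hy, hyB, he⟩ := mem_qm.1 h
    have h1 : y⁻¹ * x ∈ N := (qe_eq_one (mul_mem (inv_mem hy) hx)).1 (by
      rw [qe_mul (inv_mem hy) hx, qe_inv hy, he, inv_mul_cancel])
    have h2 : x = y * (y⁻¹ * x) := by group
    rw [h2]
    exact mul_mem (mem_sup_left hyB) (mem_sup_right h1)
  · intro h
    obtain ⟨b, hb, n, hn, rfl⟩ := (mem_sup_of_nz hB).1 h
    have : qe N hx = qe N (hB hb) := by
      have h1 : qe N hx = qe N (hB hb) * qe N (le_normalizer hn) := rfl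
      rw [h1, (qe_eq_one (le_normalizer hn)).2 hn, mul_one]
    rw [this]
    exact qe_mem _ hb

theorem qm_le_iff (hA : A ≤ 𝓝(N)) (hB : B ≤ 𝓝(N)) : qm N A ≤ qm N B ↔ A ≤ B ⊔ N := by
  constructor
  · intro h x hx
    exact (qe_mem_iff hB (hA hx)).1 (h (qe_mem (hA hx) hx))
  · intro h y hy
    obtain ⟨x, hx, hxA, rfl⟩ := mem_qm.1 hy
    exact (qe_mem_iff hB hx).2 (h hxA)

theorem qm_mono (h : A ≤ B) : qm N A ≤ qm N B := by
  intro y hy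
  obtain ⟨x, hx, hxA, rfl⟩ := mem_qm.1 hy
  exact qe_mem hx (h hxA)

theorem qm_eq_bot (hA : A ≤ 𝓝(N)) : qm N A = ⊥ ↔ A ≤ N := by
  constructor
  · intro h x hx
    have h1 := qe_mem (hA hx) hx
    rw [h, mem_bot, qe_eq_one] at h1
    exact h1
  · intro h
    rw [eq_bot_iff]
    intro y hy
    obtain ⟨x, hx, hxA, rfl⟩ := mem_qm.1 hy
    rw [mem_bot, qe_eq_one]
    exact h hxA

theorem qm_comm (hA : A ≤ 𝓝(N)) (hB : B ≤ 𝓝(N)) : qm N ⁅A, B⁆ = ⁅qm N A, qm N B⁆ := by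
  rw [qm, qm, qm, ← map_commutator]
  congr 1
  apply Subgroup.map_injective (𝓝(N)).subtype_injective
  rw [map_commutator, subgroupOf_map hA, subgroupOf_map hB]
  apply subgroupOf_map
  rw [commutator_le]
  intro a ha b hb
  exact mul_mem (mul_mem (mul_mem (hA ha) (hB hb)) (inv_mem (hA ha))) (inv_mem (hB hb))

theorem qm_nz (h : A ≤ 𝓝(B)) : qm N A ≤ 𝓝(qm N B) :=
  (Subgroup.map_mono (nz_subgroupOf h)).trans (le_normalizer_map _)

theorem qm_cz_iff (hA : A ≤ 𝓝(N)) (hB : B ≤ 𝓝(N)) : qm N A ≤ 𝓒(qm N B) ↔ ⁅A, B⁆ ≤ N := by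
  rw [← comm_eq_bot_iff, ← qm_comm hA hB, qm_eq_bot]
  rw [commutator_le]
  intro a ha b hb
  exact mul_mem (mul_mem (mul_mem (hA ha) (hB hb)) (inv_mem (hA ha))) (inv_mem (hB hb))

theorem qm_card_dvd (hA : A ≤ 𝓝(N)) : Nat.card (qm N A) ∣ Nat.card A := by
  rw [← card_subgroupOf hA]
  exact card_map_dvd _ _

theorem qm_card (hA : A ≤ 𝓝(N)) : Nat.card (qm N A) = N.relIndex A := by
  rw [qm, ← relIndex_bot_left, ← Subgroup.map_bot (QuotientGroup.mk' (N.subgroupOf 𝓝(N)))]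
  rw [Subgroup.relIndex_map_map, QuotientGroup.ker_mk', bot_sup_eq]
  rw [← Subgroup.subgroupOf_sup hA le_normalizer]
  rw [relIndex_subgroupOf (sup_le hA le_normalizer)]
  rw [relIndex_sup_eq hA]

theorem qm_solvable (hA : Group.IsSolvable A) : Group.IsSolvable (qm N A) :=
  CfsgLib.Coprime.isSolvable_map _ _ (CfsgLib.Coprime.isSolvable_subgroupOf _ _ hA)

theorem qm_sup (hA : A ≤ 𝓝(N)) (hB : B ≤ 𝓝(N)) : qm N (A ⊔ B) = qm N A ⊔ qm N B := by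
  rw [qm, qm, qm, ← Subgroup.map_sup, Subgroup.subgroupOf_sup hA hB]

theorem qm_inf (hA : A ≤ 𝓝(N)) (hNB : N ≤ B) (hB : B ≤ 𝓝(N)) :
    qm N (A ⊓ B) = qm N A ⊓ qm N B := by
  apply le_antisymm
  · exact le_inf (qm_mono inf_le_left) (qm_mono inf_le_right)
  · intro y hy
    obtain ⟨x, hx, hxA, rfl⟩ := mem_qm.1 (mem_inf.1 hy).1
    have h1 := (qe_mem_iff hB hx).1 (mem_inf.1 hy).2
    rw [sup_eq_left.2 hNB] at h1
    exact qe_mem hx (mem_inf.2 ⟨hxA, h1⟩)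

theorem qm_isPGroup {p : ℕ} (hA : IsPGroup p A) : IsPGroup p (qm N A) :=
  (isPGroup_subgroupOf hA).map _

theorem qm_zpowers {x : G} (hx : x ∈ 𝓝(N)) : qm N (zpowers x) = zpowers (qe N hx) := by
  have h : (zpowers x).subgroupOf 𝓝(N) = zpowers (⟨x, hx⟩ : ↥𝓝(N)) := by
    ext y
    rw [Subgroup.mem_subgroupOf, Subgroup.mem_zpowers_iff, Subgroup.mem_zpowers_iff]
    constructor
    · rintro ⟨n, hn⟩; exact ⟨n, Subtype.ext hn⟩
    · rintro ⟨n, hn⟩; exact ⟨n, congrArg Subtype.val hn⟩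
  rw [qm, h, MonoidHom.map_zpowers]
  rfl

end CfsgLib.BGPi
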