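import Cfsg.Agent.EqBase
import Cfsg.Agent.LibFrobP19

/-!
# Linear groups: the theorem of Blichfeldt / Frobenius on commuting elements with nearby eigenvalues
-/

set_option autoImplicit false
set_option linter.all false

universe u v w

open Cfsg
open scoped ComplexConjugate

namespace CfsgLib.Blich19

open CfsgLib.FrobP19 CfsgLib.CharBasic

/-! ### isotypic projections for abelian groups -/

section Proj
variable {A : Type u} [Group A] [Finite A] {V : Type v} [AddCommGroup V] [Module ℂ V]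

/-- projection to the `ψ`-part -/
noncomputable def proj (ρ : Representation ℂ A V) (ψ : A →* ℂˣ) (v : V) : V :=
  (Nat.card A : ℂ)⁻¹ • ∑ᶠ a : A, (ψ a⁻¹ : ℂ) • ρ a v

theorem proj_eq [Fintype A] (ρ : Representation ℂ A V) (ψ : A →* ℂˣ) (v : V) :
    proj ρ ψ v = (Nat.card A : ℂ)⁻¹ • ∑ a : A, (ψ a⁻¹ : ℂ) • ρ a v := by
  unfold proj
  rw [finsum_eq_sum_of_fintype]

theorem apply_proj (ρ : Representation ℂ A V) (ψ : A →* ℂˣ) (v : V) (b : A) :
    ρ b (proj ρ ψ v) = (ψ b : ℂ) • proj ρ ψ v := by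
  letI := Fintype.ofFinite A
  rw [proj_eq, map_smul, map_sum, smul_comm]
  congr 1
  rw [Finset.smul_sum]
  refine Fintype.sum_equiv (Equiv.mulLeft b) _ _ fun a => ?_
  rw [Equiv.coe_mulLeft, map_smul, smul_smul, ← Units.val_mul, ← map_mul, mul_inv_rev]
  rw [show b * (a⁻¹ * b⁻¹) = b * a⁻¹ * b⁻¹ by group]
  have h1 : ψ (b * a⁻¹ * b⁻¹) = ψ a⁻¹ := by
    rw [map_mul, map_mul, map_inv ψ b, mul_comm (ψ b), mul_inv_cancel_right]
  rw [h1, map_mul]
  rfl

theorem sum_proj (hab : ∀ a b : A, a * b = b * a) [Fintype (A →* ℂˣ)] (ρ : Representation ℂ A V) (v : V) :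
    ∑ ψ : A →* ℂˣ, proj ρ ψ v = v := by
  classical
  letI := Fintype.ofFinite A
  simp_rw [proj_eq]
  rw [← Finset.smul_sum, Finset.sum_comm]
  simp_rw [← Finset.sum_smul]
  have h1 : ∀ a : A, ∑ ψ : A →* ℂˣ, (ψ a⁻¹ : ℂ) = if a = 1 then (Nat.card A : ℂ) else 0 := by
    intro a
    split_ifs with h
    · rw [h, inv_one]
      simp only [map_one, Units.val_one]
      rw [Finset.sum_const, Finset.card_univ, nsmul_eq_mul, mul_one, ← Nat.card_eq_fintype_card, card_lin hab]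
    · exact lin_col hab (inv_ne_one.2 h)
  simp_rw [h1, ite_smul, zero_smul]
  rw [Finset.sum_ite_eq' Finset.univ (1 : A), if_pos (Finset.mem_univ _), smul_smul,
    inv_mul_cancel₀ (by exact_mod_cast Nat.card_pos.ne'), one_smul, map_one]
  rfl

end Proj

/-! ### unitary representations -/

section Unitary
variable {G : Type u} [Group G] [Finite G] {E : Type v} [NormedAddCommGroup E] [InnerProductSpace ℂ E]
  [FiniteDimensional ℂ E]

local notation "⟪" x ", " y "⟫" => inner ℂ x y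

theorem norm_lin {A : Type u} [Group A] [Finite A] (ψ : A →* ℂˣ) (a : A) : ‖(ψ a : ℂ)‖ = 1 := by
  have h1 : (ψ a : ℂ) ^ (Nat.card A) = 1 := by
    rw [← Units.val_pow_eq_pow_val, ← map_pow, pow_card_eq_one', map_one, Units.val_one]
  have h2 : ‖(ψ a : ℂ)‖ ^ (Nat.card A) = 1 := by rw [← norm_pow, h1, norm_one]
  exact (pow_eq_one_iff_of_nonneg (norm_nonneg _) Nat.card_pos.ne').1 h2

theorem lin_conj_mul {A : Type u} [Group A] [Finite A] (ψ : A →* ℂˣ) (a : A) : conj (ψ a : ℂ) * (ψ a : ℂ) = 1 := by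
  rw [← lin_inv, ← Units.val_mul, ← map_mul, inv_mul_cancel, map_one, Units.val_one]

/-- distinct isotypic parts are orthogonal -/
theorem orth_of_eig (ρ : Representation ℂ G E) (hu : ∀ g v w, ⟪ρ g v, ρ g w⟫ = ⟪v, w⟫) {x : G} {v w : E} {a b : ℂ}
    (hv : ρ x v = a • v) (hw : ρ x w = b • w) (hab : conj a * b ≠ 1) : ⟪v, w⟫ = 0 := by
  have h1 := hu x v w
  rw [hv, hw, _root_.inner_smul_left, _root_.inner_smul_right, ← mul_assoc] at h1
  have h2 : (conj a * b - 1) * ⟪v, w⟫ = 0 := by rw [sub_mul, one_mul, h1, sub_self]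
  exact (mul_eq_zero.1 h2).resolve_left (sub_ne_zero.2 hab)

theorem proj_orth {A : Type u} [Group A] [Finite A] (ρ : Representation ℂ A E) (hu : ∀ g v w, ⟪ρ g v, ρ g w⟫ = ⟪v, w⟫)
    {ψ φ : A →* ℂˣ} (h : ψ ≠ φ) (v w : E) : ⟪proj ρ ψ v, proj ρ φ w⟫ = 0 := by
  obtain ⟨a, ha⟩ : ∃ a, ψ a ≠ φ a := by
    by_contra hcon
    push Not at hcon
    exact h (MonoidHom.ext hcon)
  refine orth_of_eig ρ hu (apply_proj ρ ψ v a) (apply_proj ρ φ w a) ?_
  intro h1
  apply ha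
  apply Units.ext
  have h2 := lin_conj_mul ψ a
  have h3 : conj (ψ a : ℂ) ≠ 0 := left_ne_zero_of_mul_eq_one h1
  exact mul_left_cancel₀ h3 (h2.trans h1.symm)

theorem norm_sum_orth {ι : Type*} (s : Finset ι) (f : ι → E) (h : ∀ i ∈ s, ∀ j ∈ s, i ≠ j → ⟪f i, f j⟫ = 0) :
    ‖∑ i ∈ s, f i‖ ^ 2 = ∑ i ∈ s, ‖f i‖ ^ 2 := by
  classical
  induction s using Finset.induction_on with
  | empty => simp
  | insert a s ha ih =>
    rw [Finset.sum_insert ha, Finset.sum_insert ha]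
    rw [← ih (fun i hi j hj => h i (Finset.mem_insert_of_mem hi) j (Finset.mem_insert_of_mem hj))]
    rw [pow_two, pow_two, pow_two]
    apply norm_add_sq_eq_norm_sq_add_norm_sq_of_inner_eq_zero (𝕜 := ℂ)
    rw [inner_sum]
    refine Finset.sum_eq_zero fun j hj => h a (Finset.mem_insert_self _ _) j (Finset.mem_insert_of_mem hj) ?_
    rintro rfl; exact ha hj

/-- the operator -/
noncomputable def op (ρ : Representation ℂ G E) (g : G) : E →L[ℂ] E := LinearMap.toContinuousLinearMap (ρ g)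

theorem op_apply (ρ : Representation ℂ G E) (g : G) (v : E) : op ρ g v = ρ g v := rfl

theorem op_mul (ρ : Representation ℂ G E) (g h : G) : op ρ (g * h) = op ρ g * op ρ h := by
  ext v
  rw [op_apply, map_mul]; rfl

theorem op_one (ρ : Representation ℂ G E) : op ρ 1 = 1 := by
  ext v
  rw [op_apply, map_one]; rfl

theorem norm_apply {ρ : Representation ℂ G E} (hu : ∀ g v w, ⟪ρ g v, ρ g w⟫ = ⟪v, w⟫) (g : G) (v : E) : ‖ρ g v‖ = ‖v‖ := by
  have h1 := hu g v v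
  rw [inner_self_eq_norm_sq_to_K, inner_self_eq_norm_sq_to_K] at h1
  have h2 : ‖ρ g v‖ ^ 2 = ‖v‖ ^ 2 := by exact_mod_cast h1
  exact (pow_left_inj₀ (norm_nonneg _) (norm_nonneg _) two_ne_zero).1 h2

theorem norm_op_le {ρ : Representation ℂ G E} (hu : ∀ g v w, ⟪ρ g v, ρ g w⟫ = ⟪v, w⟫) (g : G) : ‖op ρ g‖ ≤ 1 := by
  refine ContinuousLinearMap.opNorm_le_bound _ zero_le_one fun v => ?_
  rw [op_apply, norm_apply hu, one_mul]

theorem norm_comm_le {ρ : Representation ℂ G E} (hu : ∀ g v w, ⟪ρ g v, ρ g w⟫ = ⟪v, w⟫) (x y : G) (c : ℂ) :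
    ‖op ρ (x * y * x⁻¹ * y⁻¹) - 1‖ ≤ 2 * ‖op ρ x - c • 1‖ * ‖op ρ y - 1‖ := by
  have h1 : op ρ (x * y * x⁻¹ * y⁻¹) - 1 = (op ρ x * op ρ y - op ρ y * op ρ x) * (op ρ x⁻¹ * op ρ y⁻¹) := by
    rw [sub_mul, ← op_mul, ← op_mul, ← op_mul, ← op_mul, ← op_mul, ← op_one ρ]
    congr 2 <;> group
  have h2 : op ρ x * op ρ y - op ρ y * op ρ x =
      (op ρ x - c • 1) * (op ρ y - 1) - (op ρ y - 1) * (op ρ x - c • 1) := by
    simp only [sub_mul, mul_sub, one_mul, mul_one, smul_mul_assoc, mul_smul_comm, smul_sub]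
    abel
  rw [h1]
  have h3 : ‖op ρ x⁻¹ * op ρ y⁻¹‖ ≤ 1 := by
    rw [← op_mul]; exact norm_op_le hu _
  calc ‖(op ρ x * op ρ y - op ρ y * op ρ x) * (op ρ x⁻¹ * op ρ y⁻¹)‖
      ≤ ‖op ρ x * op ρ y - op ρ y * op ρ x‖ * ‖op ρ x⁻¹ * op ρ y⁻¹‖ := norm_mul_le _ _
    _ ≤ ‖op ρ x * op ρ y - op ρ y * op ρ x‖ * 1 := mul_le_mul_of_nonneg_left h3 (norm_nonneg _)
    _ = ‖(op ρ x - c • 1) * (op ρ y - 1) - (op ρ y - 1) * (op ρ x - c • 1)‖ := by rw [mul_one, h2]
    _ ≤ ‖(op ρ x - c • 1) * (op ρ y - 1)‖ + ‖(op ρ y - 1) * (op ρ x - c • 1)‖ := norm_sub_le _ _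
    _ ≤ ‖op ρ x - c • 1‖ * ‖op ρ y - 1‖ + ‖op ρ y - 1‖ * ‖op ρ x - c • 1‖ := add_le_add (norm_mul_le _ _) (norm_mul_le _ _)
    _ = 2 * ‖op ρ x - c • 1‖ * ‖op ρ y - 1‖ := by ring

theorem conj_inv_norm {ρ : Representation ℂ G E} (hu : ∀ g v w, ⟪ρ g v, ρ g w⟫ = ⟪v, w⟫) (g x : G) (c : ℂ) :
    ‖op ρ (g * x * g⁻¹) - c • 1‖ ≤ ‖op ρ x - c • 1‖ := by
  have h1 : op ρ (g * x * g⁻¹) - c • 1 = op ρ g * (op ρ x - c • 1) * op ρ g⁻¹ := by
    rw [mul_sub, sub_mul, ← op_mul, ← op_mul, mul_smul_comm, mul_one, smul_mul_assoc, ← op_mul, mul_inv_cancel, op_one]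
  rw [h1]
  calc ‖op ρ g * (op ρ x - c • 1) * op ρ g⁻¹‖ ≤ ‖op ρ g * (op ρ x - c • 1)‖ * ‖op ρ g⁻¹‖ := norm_mul_le _ _
    _ ≤ ‖op ρ g * (op ρ x - c • 1)‖ * 1 := mul_le_mul_of_nonneg_left (norm_op_le hu _) (norm_nonneg _)
    _ ≤ (‖op ρ g‖ * ‖op ρ x - c • 1‖) * 1 := by rw [mul_one, mul_one]; exact norm_mul_le _ _
    _ ≤ (1 * ‖op ρ x - c • 1‖) * 1 := by
        rw [mul_one, mul_one]; exact mul_le_mul_of_nonneg_right (norm_op_le hu _) (norm_nonneg _)
    _ = _ := by rw [mul_one, one_mul]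

/-- if `x` commutes with `y x y⁻¹` and `y` is close to the identity then `y x y⁻¹` and `x` act equally -/
theorem comm_step {ρ : Representation ℂ G E} (hu : ∀ g v w, ⟪ρ g v, ρ g w⟫ = ⟪v, w⟫) {x y : G}
    (hc : x * (y * x * y⁻¹) = (y * x * y⁻¹) * x) (hy : ‖op ρ y - 1‖ < 1) : ρ (y * x * y⁻¹) = ρ x := by
  classical
  by_contra hne
  set x' := y * x * y⁻¹ with hx'
  obtain ⟨v, hv⟩ : ∃ v, ρ x' v ≠ ρ x v := by
    by_contra hcon
    push Not at hcon
    exact hne (LinearMap.ext hcon)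
  let A : Subgroup G := Subgroup.closure {x, x'}
  have hab : ∀ a b : A, a * b = b * a := by
    have h1 : ∀ a ∈ ({x, x'} : Set G), ∀ b ∈ ({x, x'} : Set G), a * b = b * a := by
      rintro a (rfl | rfl) b (rfl | rfl)
      · rfl
      · exact hc
      · exact hc.symm
      · rfl
    intro a b
    have := (Subgroup.closureCommGroupOfComm (k := {x, x'}) h1).mul_comm a b
    exact this
  haveI := finite_lin hab
  letI := Fintype.ofFinite (A →* ℂˣ)
  have hxA : x ∈ A := Subgroup.subset_closure (Or.inl rfl)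
  have hxA' : x' ∈ A := Subgroup.subset_closure (Or.inr rfl)
  let ρA : Representation ℂ A E := ρ.comp A.subtype
  obtain ⟨ψ, hψ⟩ : ∃ ψ : A →* ℂˣ, ρ x' (proj ρA ψ v) ≠ ρ x (proj ρA ψ v) := by
    by_contra hcon
    push Not at hcon
    apply hv
    rw [← sum_proj hab ρA v, map_sum, map_sum]
    exact Finset.sum_congr rfl fun ψ _ => hcon ψ
  set w := proj ρA ψ v with hw
  have e1 : ρ x w = (ψ ⟨x, hxA⟩ : ℂ) • w := apply_proj ρA ψ v ⟨x, hxA⟩
  have e2 : ρ x' w = (ψ ⟨x', hxA'⟩ : ℂ) • w := apply_proj ρA ψ v ⟨x', hxA'⟩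
  have hw0 : w ≠ 0 := by
    intro h
    apply hψ
    rw [h, map_zero, map_zero]
  have hne' : (ψ ⟨x', hxA'⟩ : ℂ) ≠ (ψ ⟨x, hxA⟩ : ℂ) := by
    intro h
    apply hψ
    rw [e1, e2, h]
  set z := ρ y⁻¹ w with hz
  have e3 : ρ x z = (ψ ⟨x', hxA'⟩ : ℂ) • z := by
    have h1 : ρ x z = ρ y⁻¹ (ρ x' w) := by
      rw [hz, ← Module.End.mul_apply, ← Module.End.mul_apply, ← map_mul, ← map_mul]
      congr 2
      rw [hx']; group
    rw [h1, e2, map_smul]
  have hor : ⟪w, z⟫ = 0 := by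
    refine orth_of_eig ρ hu e1 e3 ?_
    intro h1
    apply hne'
    have h2 := lin_conj_mul ψ ⟨x, hxA⟩
    have h3 : conj (ψ ⟨x, hxA⟩ : ℂ) ≠ 0 := left_ne_zero_of_mul_eq_one h1
    exact mul_left_cancel₀ h3 (h1.trans h2.symm)
  have h4 : ‖w - z‖ ^ 2 = 2 * ‖w‖ ^ 2 := by
    have h5 : ‖w - z‖ * ‖w - z‖ = ‖w‖ * ‖w‖ + ‖z‖ * ‖z‖ := by
      rw [sub_eq_add_neg]
      have := norm_add_sq_eq_norm_sq_add_norm_sq_of_inner_eq_zero (𝕜 := ℂ) w (-z) (by rw [_root_.inner_neg_right, hor, neg_zero])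
      rw [norm_neg] at this
      exact this
    have h6 : ‖z‖ = ‖w‖ := norm_apply hu _ _
    rw [h6] at h5
    nlinarith
  have h5 : ‖w - z‖ ≤ ‖op ρ y - 1‖ * ‖w‖ := by
    have h6 : ‖w - z‖ = ‖(op ρ y - 1) w‖ := by
      have h7 : (op ρ y - 1) w = ρ y (w - z) := by
        rw [map_sub, hz, ← Module.End.mul_apply (ρ y) (ρ y⁻¹), ← map_mul, mul_inv_cancel, map_one]; rfl
      rw [h7, norm_apply hu]
    rw [h6]
    exact (op ρ y - 1).le_opNorm w
  have hwpos : 0 < ‖w‖ := norm_pos_iff.2 hw0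
  have h6 : ‖w - z‖ < ‖w‖ := by
    calc ‖w - z‖ ≤ ‖op ρ y - 1‖ * ‖w‖ := h5
      _ < 1 * ‖w‖ := mul_lt_mul_of_pos_right hy hwpos
      _ = ‖w‖ := one_mul _
  nlinarith [norm_nonneg (w - z)]

theorem comm_of_close {ρ : Representation ℂ G E} (hu : ∀ g v w, ⟪ρ g v, ρ g w⟫ = ⟪v, w⟫) (hf : Function.Injective ρ)
    {x : G} {c : ℂ} (hx : ‖op ρ x - c • 1‖ < 1 / 2) : ∀ (n : ℕ) (y : G), Nat.card {g : G // ‖op ρ g - 1‖ < ‖op ρ y - 1‖} = n →
      ‖op ρ y - 1‖ < 1 → x * y = y * x := by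
  intro n
  induction n using Nat.strong_induction_on with
  | _ n ih =>
    intro y hn hy
    by_cases h0 : ‖op ρ y - 1‖ = 0
    · have h1 : y = 1 := by
        apply hf
        rw [norm_eq_zero, sub_eq_zero] at h0
        ext v
        have := congrArg (fun T : E →L[ℂ] E => T v) h0
        rw [map_one]
        exact this
      rw [h1, mul_one, one_mul]
    have hpos : 0 < ‖op ρ y - 1‖ := lt_of_le_of_ne (norm_nonneg _) (Ne.symm h0)
    have hlt : ‖op ρ (x * y * x⁻¹ * y⁻¹) - 1‖ < ‖op ρ y - 1‖ := by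
      calc ‖op ρ (x * y * x⁻¹ * y⁻¹) - 1‖ ≤ 2 * ‖op ρ x - c • 1‖ * ‖op ρ y - 1‖ := norm_comm_le hu x y c
        _ < 1 * ‖op ρ y - 1‖ := by
            apply mul_lt_mul_of_pos_right _ hpos
            linarith
        _ = _ := one_mul _
    have hcomm : x * (x * y * x⁻¹ * y⁻¹) = (x * y * x⁻¹ * y⁻¹) * x := by
      refine ih _ ?_ _ rfl (hlt.trans hy)
      rw [← hn]
      refine Set.ncard_lt_ncard (s := {g : G | ‖op ρ g - 1‖ < ‖op ρ (x * y * x⁻¹ * y⁻¹) - 1‖}) (t := {g : G | ‖op ρ g - 1‖ < ‖op ρ y - 1‖}) ?_ (Set.toFinite _)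
      refine ⟨fun g hg => lt_trans hg hlt, fun h => ?_⟩
      have h9 : ‖op ρ (x * y * x⁻¹ * y⁻¹) - 1‖ < ‖op ρ (x * y * x⁻¹ * y⁻¹) - 1‖ :=
        h (show (x * y * x⁻¹ * y⁻¹) ∈ {g : G | ‖op ρ g - 1‖ < ‖op ρ y - 1‖} from hlt)
      exact lt_irrefl _ h9
    have h2 : x * (y * x * y⁻¹) = (y * x * y⁻¹) * x := by
      have h3 : y * x * y⁻¹ = (x * y * x⁻¹ * y⁻¹)⁻¹ * x := by group
      rw [h3]
      have h4 : Commute x (x * y * x⁻¹ * y⁻¹) := hcomm
      have h5 : Commute x (x * y * x⁻¹ * y⁻¹)⁻¹ := h4.inv_right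
      rw [← mul_assoc, h5.eq, mul_assoc]
    have h3 := hf (comm_step hu h2 hy)
    rw [mul_inv_eq_iff_eq_mul] at h3
    exact h3.symm

/-- bounding the operator norm by the values of the linear constituents -/
theorem norm_lt_of_eig {A : Type u} [Group A] [Finite A] (hab : ∀ a b : A, a * b = b * a) {ρ : Representation ℂ A E}
    (hu : ∀ g v w, ⟪ρ g v, ρ g w⟫ = ⟪v, w⟫) {a : A} {c : ℂ} {r : ℝ} (hr : 0 < r)
    (h : ∀ ψ : A →* ℂˣ, (∃ v, proj ρ ψ v ≠ 0) → ‖(ψ a : ℂ) - c‖ < r) : ‖op ρ a - c • 1‖ < r := by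
  classical
  haveI := finite_lin hab
  letI := Fintype.ofFinite (A →* ℂˣ)
  obtain ⟨s, hs0, hsr, hs⟩ : ∃ s : ℝ, 0 ≤ s ∧ s < r ∧ ∀ ψ : A →* ℂˣ, (∃ v, proj ρ ψ v ≠ 0) → ‖(ψ a : ℂ) - c‖ ≤ s := by
    by_cases hne : (Finset.univ.filter (fun ψ : A →* ℂˣ => ∃ v, proj ρ ψ v ≠ 0)).Nonempty
    · obtain ⟨ψ0, h0, hmax⟩ := Finset.exists_max_image _ (fun ψ : A →* ℂˣ => ‖(ψ a : ℂ) - c‖) hne
      refine ⟨‖(ψ0 a : ℂ) - c‖, norm_nonneg _, h ψ0 (Finset.mem_filter.1 h0).2, fun ψ hψ => ?_⟩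
      exact hmax ψ (Finset.mem_filter.2 ⟨Finset.mem_univ _, hψ⟩)
    · refine ⟨0, le_rfl, hr, fun ψ hψ => ?_⟩
      exact absurd ⟨ψ, Finset.mem_filter.2 ⟨Finset.mem_univ _, hψ⟩⟩ hne
  refine lt_of_le_of_lt (ContinuousLinearMap.opNorm_le_bound _ hs0 fun v => ?_) hsr
  have h1 : (op ρ a - c • 1) v = ∑ ψ : A →* ℂˣ, ((ψ a : ℂ) - c) • proj ρ ψ v := by
    have h2 : (op ρ a - c • (1 : E →L[ℂ] E)) v = ρ a v - c • v := rfl
    rw [h2]
    conv_lhs => rw [← sum_proj hab ρ v]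
    rw [map_sum, Finset.smul_sum, ← Finset.sum_sub_distrib]
    exact Finset.sum_congr rfl fun ψ _ => by rw [apply_proj, sub_smul]
  have h3 : ‖(op ρ a - c • (1 : E →L[ℂ] E)) v‖ ^ 2 ≤ (s * ‖v‖) ^ 2 := by
    rw [h1, norm_sum_orth _ _ (fun ψ _ φ _ hne => by
      rw [_root_.inner_smul_left, _root_.inner_smul_right, proj_orth ρ hu hne, mul_zero, mul_zero])]
    conv_rhs => rw [← sum_proj hab ρ v]
    rw [mul_pow, norm_sum_orth _ _ (fun ψ _ φ _ hne => proj_orth ρ hu hne v v), Finset.mul_sum]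
    refine Finset.sum_le_sum fun ψ _ => ?_
    rw [norm_smul, mul_pow]
    by_cases h0 : proj ρ ψ v = 0
    · rw [h0, norm_zero]; simp
    · have := hs ψ ⟨v, h0⟩
      gcongr
  exact (pow_le_pow_iff_left₀ (norm_nonneg _) (by positivity) two_ne_zero).1 h3

/-- number of linear constituents -/
theorem card_constituents {A : Type u} [Group A] [Finite A] (hab : ∀ a b : A, a * b = b * a) {ρ : Representation ℂ A E}
    (hu : ∀ g v w, ⟪ρ g v, ρ g w⟫ = ⟪v, w⟫) :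
    Nat.card {ψ : A →* ℂˣ // ∃ v, proj ρ ψ v ≠ 0} ≤ Module.finrank ℂ E := by
  classical
  haveI := finite_lin hab
  letI := Fintype.ofFinite {ψ : A →* ℂˣ // ∃ v, proj ρ ψ v ≠ 0}
  rw [Nat.card_eq_fintype_card]
  have h1 : ∀ ψ : {ψ : A →* ℂˣ // ∃ v, proj ρ ψ v ≠ 0}, ∃ v, proj ρ ψ.1 v ≠ 0 := fun ψ => ψ.2
  choose f hf using h1
  have h2 : LinearIndependent ℂ (fun ψ : {ψ : A →* ℂˣ // ∃ v, proj ρ ψ v ≠ 0} => proj ρ ψ.1 (f ψ)) := by
    refine linearIndependent_of_ne_zero_of_inner_eq_zero hf ?_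
    intro ψ φ hne
    exact proj_orth ρ hu (fun h => hne (Subtype.ext h)) _ _
  exact h2.fintype_card_le_finrank

/-! ### boxes -/

/-- the arc containing a point of the circle -/
noncomputable def box (z : ℂ) : Fin 12 :=
  ⟨(⌈(Complex.arg z + Real.pi) / (Real.pi / 6)⌉ - 1).toNat, by
    have hpi := Real.pi_pos
    have h1 := Complex.neg_pi_lt_arg z
    have h2 := Complex.arg_le_pi z
    have h3 : (Complex.arg z + Real.pi) / (Real.pi / 6) ≤ 12 := by
      rw [div_le_iff₀ (by positivity)]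
      linarith
    have h4 : ⌈(Complex.arg z + Real.pi) / (Real.pi / 6)⌉ ≤ 12 := Int.ceil_le.2 (by exact_mod_cast h3)
    omega⟩

theorem box_eq {z w : ℂ} (h : box z = box w) : |Complex.arg w - Complex.arg z| < Real.pi / 6 := by
  have hpi := Real.pi_pos
  have hpos : ∀ u : ℂ, 1 ≤ ⌈(Complex.arg u + Real.pi) / (Real.pi / 6)⌉ := by
    intro u
    have h1 := Complex.neg_pi_lt_arg u
    have : 0 < ⌈(Complex.arg u + Real.pi) / (Real.pi / 6)⌉ := Int.ceil_pos.2 (div_pos (by linarith) (by positivity))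
    omega
  have h1 := congrArg Fin.val h
  simp only [box] at h1
  have h2 := hpos z
  have h3 := hpos w
  have h4 : ⌈(Complex.arg z + Real.pi) / (Real.pi / 6)⌉ = ⌈(Complex.arg w + Real.pi) / (Real.pi / 6)⌉ := by omega
  have h5 : |(Complex.arg w + Real.pi) / (Real.pi / 6) - (Complex.arg z + Real.pi) / (Real.pi / 6)| < 1 := by
    have e1 := Int.le_ceil ((Complex.arg z + Real.pi) / (Real.pi / 6))
    have e2 := Int.ceil_lt_add_one ((Complex.arg z + Real.pi) / (Real.pi / 6))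
    have e3 := Int.le_ceil ((Complex.arg w + Real.pi) / (Real.pi / 6))
    have e4 := Int.ceil_lt_add_one ((Complex.arg w + Real.pi) / (Real.pi / 6))
    rw [h4] at e1 e2
    rw [abs_lt]
    constructor <;> linarith
  rw [← sub_div, abs_div, abs_of_pos (by positivity : 0 < Real.pi / 6), div_lt_one (by positivity)] at h5
  have h6 : (Complex.arg w + Real.pi) - (Complex.arg z + Real.pi) = Complex.arg w - Complex.arg z := by ring
  rwa [h6] at h5

theorem re_of_box {z w : ℂ} (hz : ‖z‖ = 1) (hw : ‖w‖ = 1) (h : box z = box w) : Real.sqrt 3 / 2 < (conj z * w).re := by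
  have h1 := box_eq h
  have hz' : z = Complex.exp (Complex.arg z * Complex.I) := by
    have := Complex.norm_mul_exp_arg_mul_I z
    rw [hz] at this
    simpa using this.symm
  have hw' : w = Complex.exp (Complex.arg w * Complex.I) := by
    have := Complex.norm_mul_exp_arg_mul_I w
    rw [hw] at this
    simpa using this.symm
  have h2 : conj z * w = Complex.exp ((Complex.arg w - Complex.arg z : ℝ) * Complex.I) := by
    conv_lhs => rw [hz', hw']
    rw [← Complex.exp_conj, ← Complex.exp_add]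
    congr 1
    rw [map_mul, Complex.conj_I, Complex.conj_ofReal]
    push_cast
    ring
  rw [h2, Complex.exp_ofReal_mul_I_re, ← Real.cos_abs, ← Real.cos_pi_div_six]
  refine Real.cos_lt_cos_of_nonneg_of_le_pi (abs_nonneg _) ?_ h1
  have := Real.pi_pos
  linarith

theorem norm_of_re {w : ℂ} (hw : ‖w‖ = 1) (h : Real.sqrt 3 / 2 < w.re) : ‖w - ((Real.sqrt 3 / 2 : ℝ) : ℂ)‖ < 1 / 2 := by
  have h3 : Real.sqrt 3 ^ 2 = 3 := Real.sq_sqrt (by norm_num)
  have hs : 0 < Real.sqrt 3 := Real.sqrt_pos.2 (by norm_num)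
  have h1 : ‖w - ((Real.sqrt 3 / 2 : ℝ) : ℂ)‖ ^ 2 = 1 - Real.sqrt 3 * w.re + 3 / 4 := by
    rw [← Complex.normSq_eq_norm_sq, Complex.normSq_apply]
    have h2 : w.re * w.re + w.im * w.im = 1 := by
      rw [← Complex.normSq_apply, Complex.normSq_eq_norm_sq, hw]; norm_num
    simp only [Complex.sub_re, Complex.sub_im, Complex.ofReal_re, Complex.ofReal_im, sub_zero]
    nlinarith
  have h2 : ‖w - ((Real.sqrt 3 / 2 : ℝ) : ℂ)‖ ^ 2 < (1 / 2) ^ 2 := by
    rw [h1]; nlinarith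
  exact (pow_lt_pow_iff_left₀ (norm_nonneg _) (by norm_num) two_ne_zero).1 h2

theorem index_le {ρ : Representation ℂ G E} (hu : ∀ g v w, ⟪ρ g v, ρ g w⟫ = ⟪v, w⟫) (N : Subgroup G)
    (hN : ∀ x, ‖op ρ x - (((Real.sqrt 3 / 2 : ℝ) : ℂ)) • 1‖ < 1 / 2 → x ∈ N) (H : Subgroup G)
    (hH : ∀ x ∈ H, ∀ y ∈ H, x * y = y * x) : (N.subgroupOf H).index ≤ 12 ^ (Module.finrank ℂ E) := by
  classical
  have hab : ∀ a b : H, a * b = b * a := fun a b => Subtype.ext (hH a a.2 b b.2)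
  let ρH : Representation ℂ H E := ρ.comp H.subtype
  have huH : ∀ (g : H) (v w : E), ⟪ρH g v, ρH g w⟫ = ⟪v, w⟫ := fun g v w => hu g v w
  haveI := finite_lin hab
  let Λ := {ψ : H →* ℂˣ // ∃ v, proj ρH ψ v ≠ 0}
  haveI : Finite Λ := Subtype.finite
  letI := Fintype.ofFinite Λ
  let F : (H ⧸ N.subgroupOf H) → (Λ → Fin 12) := fun q ψ => box ((ψ.1 (Quotient.out q) : ℂˣ) : ℂ)
  have hF : Function.Injective F := by
    intro q q' hqq
    have h1 : ∀ ψ : Λ, box ((ψ.1 (Quotient.out q) : ℂˣ) : ℂ) = box ((ψ.1 (Quotient.out q') : ℂˣ) : ℂ) := fun ψ => congrFun hqq ψ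
    rw [← Quotient.out_eq q, ← Quotient.out_eq q']
    change ((Quotient.out q : H) : H ⧸ N.subgroupOf H) = ((Quotient.out q' : H) : H ⧸ N.subgroupOf H)
    rw [QuotientGroup.eq, Subgroup.mem_subgroupOf]
    apply hN
    have h2 : op ρ (((Quotient.out q : H)⁻¹ * Quotient.out q' : H) : G) = op ρH ((Quotient.out q : H)⁻¹ * Quotient.out q') := rfl
    rw [h2]
    refine norm_lt_of_eig hab huH (by norm_num) fun ψ hψ => ?_
    have h3 : ((ψ ((Quotient.out q : H)⁻¹ * Quotient.out q') : ℂˣ) : ℂ) = conj ((ψ (Quotient.out q) : ℂˣ) : ℂ) * ((ψ (Quotient.out q') : ℂˣ) : ℂ) := by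
      rw [map_mul, Units.val_mul, lin_inv]
    apply norm_of_re (norm_lin _ _)
    rw [h3]
    exact re_of_box (norm_lin _ _) (norm_lin _ _) (h1 ⟨ψ, hψ⟩)
  have h4 : Nat.card (H ⧸ N.subgroupOf H) ≤ Nat.card (Λ → Fin 12) := Nat.card_le_card_of_injective F hF
  rw [Nat.card_fun, Nat.card_fin] at h4
  exact h4.trans (Nat.pow_le_pow_right (by norm_num) (card_constituents hab huH))

theorem unitary_main {ρ : Representation ℂ G E} (hu : ∀ g v w, ⟪ρ g v, ρ g w⟫ = ⟪v, w⟫) (hf : Function.Injective ρ) :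
    ∃ A : Subgroup G, A.Normal ∧ (∀ x ∈ A, ∀ y ∈ A, x * y = y * x) ∧
      ∀ H : Subgroup G, (∀ x ∈ H, ∀ y ∈ H, x * y = y * x) → (A.subgroupOf H).index ≤ 12 ^ (Module.finrank ℂ E) := by
  let S : Set G := {x | ‖op ρ x - (((Real.sqrt 3 / 2 : ℝ) : ℂ)) • 1‖ < 1 / 2}
  have hclose : ∀ x ∈ S, ‖op ρ x - 1‖ < 1 := by
    intro x hx
    have h1 : op ρ x - 1 = (op ρ x - (((Real.sqrt 3 / 2 : ℝ) : ℂ)) • 1) + ((((Real.sqrt 3 / 2 : ℝ) : ℂ)) - 1) • 1 := by
      rw [sub_smul, one_smul]; abel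
    rw [h1]
    have h2 : ‖((((Real.sqrt 3 / 2 : ℝ) : ℂ)) - 1) • (1 : E →L[ℂ] E)‖ ≤ 1 / 2 := by
      rw [norm_smul]
      have h3 : ‖(((Real.sqrt 3 / 2 : ℝ) : ℂ)) - 1‖ ≤ 1 / 2 := by
        rw [← Complex.ofReal_one, ← Complex.ofReal_sub, Complex.norm_real, Real.norm_eq_abs, abs_le]
        have h4 : Real.sqrt 3 ≤ 2 := by
          rw [Real.sqrt_le_left (by norm_num)]; norm_num
        have h5 : 1 ≤ Real.sqrt 3 := by
          rw [Real.one_le_sqrt]; norm_num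
        constructor <;> linarith
      have h6 : ‖(1 : E →L[ℂ] E)‖ ≤ 1 := ContinuousLinearMap.norm_id_le
      calc _ ≤ (1 / 2) * (1 : ℝ) := mul_le_mul h3 h6 (norm_nonneg _) (by norm_num)
        _ = _ := mul_one _
    calc _ ≤ ‖op ρ x - (((Real.sqrt 3 / 2 : ℝ) : ℂ)) • 1‖ + ‖((((Real.sqrt 3 / 2 : ℝ) : ℂ)) - 1) • (1 : E →L[ℂ] E)‖ := norm_add_le _ _
      _ < 1 / 2 + 1 / 2 := add_lt_add_of_lt_of_le hx h2
      _ = 1 := by norm_num
  have hcomm : ∀ x ∈ S, ∀ y ∈ S, x * y = y * x := fun x hx y hy => comm_of_close hu hf hx _ y rfl (hclose y hy)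
  have hconj : ∀ x ∈ S, ∀ g : G, g * x * g⁻¹ ∈ S := fun x hx g => lt_of_le_of_lt (conj_inv_norm hu g x _) hx
  have hcs : ∀ x ∈ Group.conjugatesOfSet S, x ∈ S := by
    intro x hx
    obtain ⟨a, ha, hax⟩ := Group.mem_conjugatesOfSet_iff.1 hx
    obtain ⟨g, rfl⟩ := isConj_iff.1 hax
    exact hconj a ha g
  refine ⟨Subgroup.normalClosure S, inferInstance, ?_, ?_⟩
  · intro x hx y hy
    have := (Subgroup.closureCommGroupOfComm (k := Group.conjugatesOfSet S)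
      (fun a ha b hb => hcomm a (hcs a ha) b (hcs b hb))).mul_comm ⟨x, hx⟩ ⟨y, hy⟩
    exact congrArg Subtype.val this
  · intro H hH
    exact index_le hu _ (fun x hx => Subgroup.subset_normalClosure hx) H hH

end Unitary

/-! ### every representation is unitary for a suitable inner product -/

section Main
variable {G : Type u} [Group G] [Finite G] {V : Type v} [AddCommGroup V] [Module ℂ V] [FiniteDimensional ℂ V]

/-- the averaged inner product -/
noncomputable def avg (ρ : Representation ℂ G V) (v w : V) : ℂ :=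
  ∑ᶠ g : G, ∑ i, conj ((Module.finBasis ℂ V).repr (ρ g v) i) * (Module.finBasis ℂ V).repr (ρ g w) i

theorem avg_eq [Fintype G] (ρ : Representation ℂ G V) (v w : V) :
    avg ρ v w = ∑ g : G, ∑ i, conj ((Module.finBasis ℂ V).repr (ρ g v) i) * (Module.finBasis ℂ V).repr (ρ g w) i := by
  unfold avg; rw [finsum_eq_sum_of_fintype]

theorem avg_inv (ρ : Representation ℂ G V) (h : G) (v w : V) : avg ρ (ρ h v) (ρ h w) = avg ρ v w := by
  letI := Fintype.ofFinite G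
  rw [avg_eq, avg_eq]
  refine Fintype.sum_equiv (Equiv.mulRight h) _ _ fun g => ?_
  rw [Equiv.coe_mulRight, map_mul]; rfl

/-- the inner product space core -/
noncomputable def avgCore (ρ : Representation ℂ G V) : InnerProductSpace.Core ℂ V where
  inner := avg ρ
  conj_inner_symm v w := by
    letI := Fintype.ofFinite G
    rw [avg_eq, avg_eq, map_sum]
    refine Finset.sum_congr rfl fun g _ => ?_
    rw [map_sum]
    exact Finset.sum_congr rfl fun i _ => by rw [map_mul, Complex.conj_conj, mul_comm]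
  re_inner_nonneg v := by
    letI := Fintype.ofFinite G
    change 0 ≤ (avg ρ v v).re
    rw [avg_eq, Complex.re_sum]
    refine Finset.sum_nonneg fun g _ => ?_
    rw [Complex.re_sum]
    refine Finset.sum_nonneg fun i _ => ?_
    rw [← Complex.normSq_eq_conj_mul_self, Complex.ofReal_re]
    exact Complex.normSq_nonneg _
  add_left x y z := by
    letI := Fintype.ofFinite G
    rw [avg_eq, avg_eq, avg_eq, ← Finset.sum_add_distrib]
    refine Finset.sum_congr rfl fun g _ => ?_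
    rw [← Finset.sum_add_distrib]
    refine Finset.sum_congr rfl fun i _ => ?_
    rw [map_add, map_add, Finsupp.add_apply, map_add, add_mul]
  smul_left x y r := by
    letI := Fintype.ofFinite G
    rw [avg_eq, avg_eq, Finset.mul_sum]
    refine Finset.sum_congr rfl fun g _ => ?_
    rw [Finset.mul_sum]
    refine Finset.sum_congr rfl fun i _ => ?_
    rw [map_smul, map_smul, Finsupp.smul_apply, smul_eq_mul, map_mul, mul_assoc]
  definite v hv := by
    letI := Fintype.ofFinite G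
    have h1 : (avg ρ v v).re = 0 := by
      have : avg ρ v v = 0 := hv
      rw [this]; rfl
    rw [avg_eq, Complex.re_sum] at h1
    have hnn : ∀ g ∈ (Finset.univ : Finset G), 0 ≤ (∑ i, conj ((Module.finBasis ℂ V).repr (ρ g v) i) * (Module.finBasis ℂ V).repr (ρ g v) i).re := by
      intro g _
      rw [Complex.re_sum]
      refine Finset.sum_nonneg fun i _ => ?_
      rw [← Complex.normSq_eq_conj_mul_self, Complex.ofReal_re]
      exact Complex.normSq_nonneg _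
    have h2 := (Finset.sum_eq_zero_iff_of_nonneg hnn).1 h1 1 (Finset.mem_univ _)
    rw [Complex.re_sum] at h2
    have hnn2 : ∀ i ∈ (Finset.univ : Finset (Fin (Module.finrank ℂ V))), 0 ≤ (conj ((Module.finBasis ℂ V).repr (ρ 1 v) i) * (Module.finBasis ℂ V).repr (ρ 1 v) i).re := by
      intro i _
      rw [← Complex.normSq_eq_conj_mul_self, Complex.ofReal_re]
      exact Complex.normSq_nonneg _
    have h3 := (Finset.sum_eq_zero_iff_of_nonneg hnn2).1 h2
    have h4 : (Module.finBasis ℂ V).repr (ρ 1 v) = 0 := by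
      ext i
      have h5 := h3 i (Finset.mem_univ _)
      rw [← Complex.normSq_eq_conj_mul_self, Complex.ofReal_re, Complex.normSq_eq_zero] at h5
      exact h5
    rw [map_one, Module.End.one_apply] at h4
    exact (Module.finBasis ℂ V).repr.map_eq_zero_iff.1 h4

theorem rep_main (ρ : Representation ℂ G V) (hf : Function.Injective ρ) :
    ∃ A : Subgroup G, A.Normal ∧ (∀ x ∈ A, ∀ y ∈ A, x * y = y * x) ∧
      ∀ H : Subgroup G, (∀ x ∈ H, ∀ y ∈ H, x * y = y * x) → (A.subgroupOf H).index ≤ 12 ^ (Module.finrank ℂ V) := by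
  letI cd := avgCore ρ
  letI : NormedAddCommGroup V := cd.toNormedAddCommGroup
  letI : InnerProductSpace ℂ V := InnerProductSpace.ofCore cd.toCore
  exact unitary_main (ρ := ρ) (fun g v w => avg_inv ρ g v w) hf

theorem char_main {χ : G → ℂ} (hχ : IsCharacter G χ) (hfaith : ∀ g : G, χ g = χ 1 → g = 1) {n : ℕ} (hn : charDegree χ = n) :
    ∃ A : Subgroup G, A.Normal ∧ (∀ x ∈ A, ∀ y ∈ A, x * y = y * x) ∧
      ∀ H : Subgroup G, (∀ x ∈ H, ∀ y ∈ H, x * y = y * x) → (A.subgroupOf H).index ≤ 12 ^ n := by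
  obtain ⟨m, ρ, hρ⟩ := id hχ
  have hf : Function.Injective ρ := by
    have h1 : ∀ g, ρ g = 1 → g = 1 := by
      intro g hg
      apply hfaith
      rw [← hρ]
      unfold Representation.character
      rw [hg, map_one ρ]
    intro a b hab
    have h2 : ρ (a * b⁻¹) = 1 := by
      rw [map_mul, hab, ← map_mul, mul_inv_cancel, map_one]
    exact mul_inv_eq_one.1 (h1 _ h2)
  have hdim : Module.finrank ℂ (Fin m → ℂ) = n := by
    rw [← hn]
    unfold charDegree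
    rw [← hρ, Representation.char_one]
    simp
  have h3 := rep_main ρ hf
  rwa [hdim] at h3

end Main

end CfsgLib.Blich19
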