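import Mathlib
import Cfsg.Agent.EqBase
import Cfsg.Agent.LibQrtE28
import Cfsg.Agent.LibSyn28

set_option autoImplicit false

/-! The 2-cores of the sextet and trio stabilisers (helper28). -/

namespace CfsgLib.Blk28

open Cfsg CfsgLib.Golay CfsgLib.M24 CfsgLib.Restr28 CfsgLib.OrbG28 CfsgLib.Qrt28 MulAction
open scoped Pointwise

/-! ### two commuting subgroups -/

theorem mem_sup_of_comm {G : Type*} [Group G] {A B : Subgroup G} (hc : ∀ a ∈ A, ∀ b ∈ B, a * b = b * a) {x : G}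
    (hx : x ∈ A ⊔ B) : ∃ a ∈ A, ∃ b ∈ B, x = a * b := by
  have hc' : ∀ (a : A) (b : B), Commute (A.subtype a) (B.subtype b) := fun a b => hc a a.2 b b.2
  have h1 : (MonoidHom.noncommCoprod A.subtype B.subtype hc').range = A ⊔ B := by
    rw [MonoidHom.noncommCoprod_range, Subgroup.range_subtype, Subgroup.range_subtype]
  rw [← h1] at hx
  obtain ⟨⟨a, b⟩, rfl⟩ := hx
  exact ⟨a, a.2, b, b.2, rfl⟩

theorem card_sup_of_comm {G : Type*} [Group G] [Finite G] {A B : Subgroup G} (hc : ∀ a ∈ A, ∀ b ∈ B, a * b = b * a)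
    (hd : A ⊓ B = ⊥) : Nat.card ↥(A ⊔ B) = Nat.card A * Nat.card B := by
  have hc' : ∀ (a : A) (b : B), Commute (A.subtype a) (B.subtype b) := fun a b => hc a a.2 b b.2
  have h1 : (MonoidHom.noncommCoprod A.subtype B.subtype hc').range = A ⊔ B := by
    rw [MonoidHom.noncommCoprod_range, Subgroup.range_subtype, Subgroup.range_subtype]
  have h2 : Function.Injective (MonoidHom.noncommCoprod A.subtype B.subtype hc') := by
    rw [MonoidHom.noncommCoprod_injective]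
    refine ⟨A.subtype_injective, B.subtype_injective, ?_⟩
    rw [Subgroup.range_subtype, Subgroup.range_subtype, disjoint_iff]
    exact hd
  rw [← h1, ← Nat.card_prod]
  exact (Nat.card_congr (MonoidHom.ofInjective h2).toEquiv).symm

theorem sq_sup_of_comm {G : Type*} [Group G] {A B : Subgroup G} (hc : ∀ a ∈ A, ∀ b ∈ B, a * b = b * a)
    (hA : ∀ a ∈ A, a * a = 1) (hB : ∀ b ∈ B, b * b = 1) : ∀ x ∈ A ⊔ B, x * x = 1 := by
  intro x hx
  obtain ⟨a, ha, b, hb, rfl⟩ := mem_sup_of_comm hc hx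
  calc a * b * (a * b) = a * (b * a) * b := by group
    _ = a * (a * b) * b := by rw [hc a ha b hb]
    _ = (a * a) * (b * b) := by group
    _ = 1 := by rw [hA a ha, hB b hb, mul_one]

theorem comm_of_norm {G : Type*} [Group G] {A B K : Subgroup G} (hA : ∀ k ∈ K, ∀ a ∈ A, k * a * k⁻¹ ∈ A)
    (hB : ∀ k ∈ K, ∀ a ∈ B, k * a * k⁻¹ ∈ B) (hAK : A ≤ K) (hBK : B ≤ K) (hd : A ⊓ B = ⊥) :
    ∀ a ∈ A, ∀ b ∈ B, a * b = b * a := by
  intro a ha b hb
  have h1 : a * b * a⁻¹ * b⁻¹ ∈ A ⊓ B := by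
    refine ⟨?_, ?_⟩
    · have : a * b * a⁻¹ * b⁻¹ = a * (b * a⁻¹ * b⁻¹) := by group
      rw [this]
      exact A.mul_mem ha (hA b (hBK hb) _ (A.inv_mem ha))
    · exact B.mul_mem (hB a (hAK ha) b hb) (B.inv_mem hb)
  rw [hd, Subgroup.mem_bot] at h1
  have h2 : a * b = (a * b * a⁻¹ * b⁻¹) * (b * a) := by group
  rw [h2, h1, one_mul]

/-! ### the groups -/

/-- pointwise stabiliser -/
def fx (o : Finset GolayPt) : Subgroup ↥M24 where
  carrier := {g | ∀ x ∈ o, (g : Equiv.Perm GolayPt) x = x}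
  one_mem' := fun _ _ => rfl
  mul_mem' := by
    intro a b ha hb x hx
    show (a : Equiv.Perm GolayPt) ((b : Equiv.Perm GolayPt) x) = x
    rw [hb x hx, ha x hx]
  inv_mem' := by
    intro a ha x hx
    show (a : Equiv.Perm GolayPt)⁻¹ x = x
    rw [Equiv.Perm.inv_eq_iff_eq, ha x hx]

theorem mem_fx {o : Finset GolayPt} {g : ↥M24} : g ∈ fx o ↔ ∀ x ∈ o, (g : Equiv.Perm GolayPt) x = x := Iff.rfl

/-- stabiliser of each member -/
def kr (S : Finset (Finset GolayPt)) : Subgroup ↥M24 where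
  carrier := {g | ∀ t ∈ S, g • t = t}
  one_mem' := fun _ _ => one_smul _ _
  mul_mem' := by
    intro a b ha hb t ht
    rw [mul_smul, hb t ht, ha t ht]
  inv_mem' := by
    intro a ha t ht
    rw [inv_smul_eq_iff, ha t ht]

theorem mem_kr {S : Finset (Finset GolayPt)} {g : ↥M24} : g ∈ kr S ↔ ∀ t ∈ S, g • t = t := Iff.rfl

theorem kr_le (S : Finset (Finset GolayPt)) : kr S ≤ stabilizer ↥M24 S := by
  intro g hg
  rw [mem_stabilizer_iff]
  apply Finset.eq_of_subset_of_card_le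
  · intro t ht
    obtain ⟨u, hu, rfl⟩ := Finset.mem_smul_finset.1 ht
    rw [hg u hu]; exact hu
  · rw [Finset.card_smul_finset]

theorem kr_norm {S : Finset (Finset GolayPt)} {g : ↥M24} (hg : g • S = S) {k : ↥M24} (hk : k ∈ kr S) : g * k * g⁻¹ ∈ kr S := by
  intro t ht
  have h1 : g⁻¹ • t ∈ S := by
    have h2 : g⁻¹ • S = S := inv_smul_eq_iff.2 hg.symm
    rw [← h2]
    exact Finset.smul_mem_smul_finset ht
  rw [mul_smul, mul_smul, hk _ h1, smul_inv_smul]

/-- the groups `E` -/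
def EE (S : Finset (Finset GolayPt)) (o : Finset GolayPt) : Subgroup ↥M24 := fx o ⊓ kr S

theorem EE_le (S : Finset (Finset GolayPt)) (o : Finset GolayPt) : EE S o ≤ kr S := inf_le_right

theorem fx_conj {o : Finset GolayPt} {g k : ↥M24} (hk : k ∈ fx o) : g * k * g⁻¹ ∈ fx (g • o) := by
  intro x hx
  obtain ⟨y, hy, rfl⟩ := Finset.mem_smul_finset.1 hx
  show (g : Equiv.Perm GolayPt) ((k : Equiv.Perm GolayPt) ((g : Equiv.Perm GolayPt)⁻¹ ((g : Equiv.Perm GolayPt) y))) =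
    (g : Equiv.Perm GolayPt) y
  rw [show (g : Equiv.Perm GolayPt)⁻¹ ((g : Equiv.Perm GolayPt) y) = y by simp, hk y hy]

theorem EE_conj {S : Finset (Finset GolayPt)} {o : Finset GolayPt} {g : ↥M24} (hg : g • S = S) {k : ↥M24} (hk : k ∈ EE S o) :
    g * k * g⁻¹ ∈ EE S (g • o) := ⟨fx_conj hk.1, kr_norm hg hk.2⟩

theorem EE_sq {S : Finset (Finset GolayPt)} {o : Finset GolayPt} (ho : o ∈ octads) : ∀ g ∈ EE S o, g * g = 1 := by
  intro g hg
  apply Subtype.ext
  apply (octad_pointwise ho).2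
  exact Subgroup.mem_inf.2 ⟨g.2, mem_fixing.2 hg.1⟩

theorem fx_fix {o : Finset GolayPt} (ho : o ∈ octads) {p : GolayPt} (hp : p ∉ o) {g : ↥M24} (hg : g ∈ fx o)
    (h : (g : Equiv.Perm GolayPt) p = p) : g = 1 :=
  Subtype.ext (fix_nine ho hp g.2 hg h)

theorem fx_sq {o : Finset GolayPt} (ho : o ∈ octads) : ∀ g ∈ fx o, g * g = 1 := by
  intro g hg
  apply Subtype.ext
  apply (octad_pointwise ho).2
  exact Subgroup.mem_inf.2 ⟨g.2, mem_fixing.2 hg⟩

theorem fx_comm {o : Finset GolayPt} (ho : o ∈ octads) {g h : ↥M24} (hg : g ∈ fx o) (hh : h ∈ fx o) : g * h = h * g := by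
  have h1 := fx_sq ho g hg
  have h2 := fx_sq ho h hh
  have h3 := fx_sq ho _ (mul_mem hg hh)
  have h4 : g⁻¹ = g := inv_eq_of_mul_eq_one_left h1
  have h5 : h⁻¹ = h := inv_eq_of_mul_eq_one_left h2
  have h6 : (g * h)⁻¹ = g * h := inv_eq_of_mul_eq_one_left h3
  rw [mul_inv_rev, h4, h5] at h6
  exact h6.symm

section
variable {S : Finset (Finset GolayPt)} {o : Finset GolayPt} (ho : o ∈ octads)
  (hS : ∀ g ∈ fx o, g • S = S) (hdis : ∀ t ∈ S, ∀ u ∈ S, t ≠ u → Disjoint t u) (hb : ∀ t ∈ S, t ⊆ o ∨ Disjoint t o)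

include ho hS hdis hb in
/-- moving within a block -/
theorem EE_move {b : Finset GolayPt} (hbS : b ∈ S) (hbo : Disjoint b o) {x y : GolayPt} (hx : x ∈ b) (hy : y ∈ b) :
    ∃ g ∈ EE S o, (g : Equiv.Perm GolayPt) x = y := by
  have hnot : ∀ z ∈ b, z ∉ o := fun z hz => Finset.disjoint_left.1 hbo hz
  obtain ⟨g, hg, hgo, hgx⟩ := ptw_trans ho (hnot x hx) (hnot y hy)
  let G : ↥M24 := ⟨g, hg⟩
  have hG : G ∈ fx o := hgo
  have hmem : ∀ h ∈ fx o, ∀ t ∈ S, h • t ∈ S := by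
    intro h hh t ht
    have : h • t ∈ h • S := Finset.smul_mem_smul_finset ht
    rwa [hS h hh] at this
  have huniq : ∀ t ∈ S, ∀ u ∈ S, ∀ z, z ∈ t → z ∈ u → t = u := by
    intro t ht u hu z h1 h2
    by_contra hne
    exact Finset.disjoint_left.1 (hdis t ht u hu hne) h1 h2
  have hGb : G • b = b := by
    apply huniq _ (hmem G hG b hbS) _ hbS y _ hy
    rw [← hgx]
    exact Finset.smul_mem_smul_finset (a := G) hx
  refine ⟨G, ⟨hG, ?_⟩, hgx⟩
  intro t ht
  rcases hb t ht with h1 | h1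
  · -- inside the octad
    apply Finset.eq_of_subset_of_card_le
    · intro z hz
      obtain ⟨w, hw, rfl⟩ := Finset.mem_smul_finset.1 hz
      have : G • w = w := hgo w (h1 hw)
      rw [this]; exact hw
    · rw [Finset.card_smul_finset]
  · rcases t.eq_empty_or_nonempty with h2 | ⟨z, hz⟩
    · rw [h2, Finset.smul_finset_empty]
    · obtain ⟨k, hk, hko, hkx⟩ := ptw_trans ho (hnot x hx) (Finset.disjoint_left.1 h1 hz)
      let K : ↥M24 := ⟨k, hk⟩
      have hK : K ∈ fx o := hko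
      have hKb : K • b = t := by
        apply huniq _ (hmem K hK b hbS) _ ht z _ hz
        rw [← hkx]
        exact Finset.smul_mem_smul_finset (a := K) hx
      rw [← hKb, ← mul_smul, fx_comm ho hG hK, mul_smul, hGb]

include ho hS hdis hb in
theorem EE_card {b : Finset GolayPt} (hbS : b ∈ S) (hbo : Disjoint b o) (hne : b.Nonempty) : Nat.card ↥(EE S o) = b.card := by
  obtain ⟨x, hx⟩ := hne
  have hxo : x ∉ o := Finset.disjoint_left.1 hbo hx
  let f : ↥(EE S o) → ↥b := fun g => ⟨((g : ↥M24) : Equiv.Perm GolayPt) x, by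
    have h1 : (g : ↥M24) • b = b := g.2.2 b hbS
    have h2 : (g : ↥M24) • x ∈ (g : ↥M24) • b := Finset.smul_mem_smul_finset hx
    rwa [h1] at h2⟩
  have hf : Function.Bijective f := by
    constructor
    · intro g k h
      have h1 : ((g : ↥M24) : Equiv.Perm GolayPt) x = ((k : ↥M24) : Equiv.Perm GolayPt) x := congrArg Subtype.val h
      have h2 : (k : ↥M24)⁻¹ * g = 1 := by
        apply fx_fix ho hxo (mul_mem (inv_mem k.2.1) g.2.1)
        show ((k : ↥M24) : Equiv.Perm GolayPt)⁻¹ (((g : ↥M24) : Equiv.Perm GolayPt) x) = x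
        rw [h1]; simp
      rw [inv_mul_eq_one] at h2
      exact Subtype.ext h2.symm
    · rintro ⟨y, hy⟩
      obtain ⟨g, hg, h1⟩ := EE_move ho hS hdis hb hbS hbo hx hy
      exact ⟨⟨g, hg⟩, Subtype.ext h1⟩
  rw [Nat.card_congr (Equiv.ofBijective f hf), Nat.card_eq_fintype_card, Fintype.card_coe]

end

/-- the intersection of two of the groups is trivial -/
theorem EE_inf {S : Finset (Finset GolayPt)} {o o' : Finset GolayPt} (ho : o ∈ octads) {p : GolayPt} (hp : p ∈ o') (hp' : p ∉ o) :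
    EE S o ⊓ EE S o' = ⊥ := by
  rw [eq_bot_iff]
  intro g hg
  rw [Subgroup.mem_bot]
  exact fx_fix ho hp' hg.1.1 (hg.2.1 p hp)

end CfsgLib.Blk28
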