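import Mathlib
import Cfsg.Agent.EqBase
import Cfsg.Agent.LibCnt28

set_option autoImplicit false

/-! Matrices of the representatives of orders 2 and 3 (helper28). -/

namespace CfsgLib.EltM28

open Cfsg CfsgLib.M24 CfsgLib.Golay CfsgLib.Syn28 CfsgLib.Elt28 CfsgLib.EltD28 CfsgLib.OrbG28 CfsgLib.Cnt28
  CfsgLib.EltE28 CfsgLib.OrbM28 CfsgLib.OrbF28 CfsgLib.TrioKey28

/-- code matrix -/
def tAA : List ℕ := [1346, 1158, 4, 1950, 51, 487, 1586, 1845, 256, 1703, 949, 2048]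
/-- syndrome matrix -/
def tAC : List ℕ := [1972, 128, 4, 64, 512, 32, 8, 2, 986, 16, 493, 2048]
theorem tA_ok : okAC tA tAA tAC = true := by decide +kernel
theorem tAA_lt : ∀ b ∈ tAA, b < 2 ^ 12 := by decide
theorem tAC_lt : ∀ b ∈ tAC, b < 2 ^ 12 := by decide

/-- code matrix -/
def tBA : List ℕ := [2141, 1182, 1521, 1249, 336, 3221, 28, 3420, 348, 678, 2432, 2048]
/-- syndrome matrix -/
def tBC : List ℕ := [2483, 986, 1972, 32, 3642, 8, 1024, 3788, 1763, 493, 64, 3189]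
theorem tB_ok : okAC tB tBA tBC = true := by decide +kernel
theorem tBA_lt : ∀ b ∈ tBA, b < 2 ^ 12 := by decide
theorem tBC_lt : ∀ b ∈ tBC, b < 2 ^ 12 := by decide

/-- code matrix -/
def uAA : List ℕ := [1972, 784, 1396, 1908, 117, 1941, 1154, 507, 1390, 2031, 1733, 2048]
/-- syndrome matrix -/
def uAC : List ℕ := [2483, 3788, 32, 256, 512, 2918, 1024, 64, 1972, 3642, 128, 2048]
theorem uA_ok : okAC uA uAA uAC = true := by decide +kernel
theorem uAA_lt : ∀ b ∈ uAA, b < 2 ^ 12 := by decide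
theorem uAC_lt : ∀ b ∈ uAC, b < 2 ^ 12 := by decide

/-- code matrix -/
def uBA : List ℕ := [2993, 2745, 168, 1305, 1363, 149, 3791, 1986, 2811, 451, 26, 2048]
/-- syndrome matrix -/
def uBC : List ℕ := [2918, 1024, 256, 1972, 8, 128, 4, 986, 64, 2, 512, 3189]
theorem uB_ok : okAC uB uBA uBC = true := by decide +kernel
theorem uBA_lt : ∀ b ∈ uBA, b < 2 ^ 12 := by decide
theorem uBC_lt : ∀ b ∈ uBC, b < 2 ^ 12 := by decide

end CfsgLib.EltM28
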