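import Mathlib
import Cfsg.Agent.EqBase
import Cfsg.Agent.LibEltM28

set_option autoImplicit false

/-! The class of fixed point free involutions of `M24` (helper28). -/

namespace CfsgLib.InvB28

open Cfsg CfsgLib.M24 CfsgLib.Golay CfsgLib.Syn28 CfsgLib.Elt28 CfsgLib.EltD28 CfsgLib.OrbG28 CfsgLib.Cnt28
  CfsgLib.EltE28 CfsgLib.OrbM28 CfsgLib.EltM28
open scoped Pointwise

/-- fibrewise counting -/
theorem ncard_fib {α β : Type*} [DecidableEq β] {A : Set α} (hA : A.Finite) (f : α → β) (T : Finset β) (n : ℕ)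
    (hf : ∀ a ∈ A, f a ∈ T) (hn : ∀ b ∈ T, {a | a ∈ A ∧ f a = b}.ncard = n) : A.ncard = T.card * n := by
  classical
  rw [Set.ncard_eq_toFinset_card A hA, Finset.card_eq_sum_card_fiberwise (f := f) (t := T)
    (fun a ha => hf a (by simpa using ha))]
  rw [Finset.sum_const_nat (m := n)]
  intro b hb
  rw [← hn b hb, ← Set.ncard_coe_finset]
  congr 1
  ext a
  simp

/-- the fixed point free involutions -/
def Om : Set (Equiv.Perm GolayPt) := {t | t ∈ M24 ∧ t * t = 1 ∧ ∀ p, t p ≠ p}

theorem Om_finite : Om.Finite := Set.toFinite _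

theorem free_of_card {g : Equiv.Perm GolayPt} (h : (fixPts g).card = 0) (p : GolayPt) : g p ≠ p := by
  intro hp
  rw [Finset.card_eq_zero] at h
  have := mem_fixPts.2 hp
  rw [h] at this; simp at this

theorem card_of_free {g : Equiv.Perm GolayPt} (h : ∀ p, g p ≠ p) : (fixPts g).card = 0 := by
  rw [Finset.card_eq_zero, Finset.eq_empty_iff_forall_notMem]
  intro q hq
  exact h q (mem_fixPts.1 hq)

theorem Om_conj {h t : Equiv.Perm GolayPt} (hh : h ∈ M24) (ht : t ∈ Om) : h * t * h⁻¹ ∈ Om := by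
  refine ⟨mul_mem (mul_mem hh ht.1) (inv_mem hh), sq_conj ht.2.1, ?_⟩
  apply free_of_card
  rw [fixPts_conj]
  exact card_of_free ht.2.2

theorem sq_of_isInv {g : Equiv.Perm GolayPt} {R : List ℕ} (hg : Rep g R) (h : isInv R = true) : g * g = 1 := by
  apply Equiv.ext
  intro p
  rw [isInv, allN_iff] at h
  apply idx_injective
  rw [Equiv.Perm.mul_apply, hg.idx, hg.idx]
  exact beq_iff.1 (h _ (idx_lt p))

theorem okLB2 : (LB.all fun R => and (isInv R) (and (Nat.beq (R.getD 23 0) 0) (Nat.beq (R.getD 1 0) 2))) = true := by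
  decide +kernel

theorem LB_nodup : LB.Nodup := by decide +kernel

theorem LB_length : LB.length = 66 := by decide +kernel

theorem rep_of_LB {R : List ℕ} (h : R ∈ LB) : Rep (mkPerm R) R := rep_mkPerm (valid_of_isM24 (LB_spec h).1)

theorem apply_of_getD {R : List ℕ} {g : Equiv.Perm GolayPt} (h : Rep g R) {i j : ℕ} (hi : i < 24) (hj : j < 24)
    (hij : R.getD i 0 = j) : g (pt i) = pt j := by
  apply idx_injective
  rw [h.idx, idx_pt i hi, idx_pt j hj, hij]

theorem mem_Om_of_LB {R : List ℕ} (h : R ∈ LB) : mkPerm R ∈ Om ∧ mkPerm R (pt 23) = pt 0 ∧ mkPerm R (pt 1) = pt 2 := by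
  have h1 := LB_spec h
  have h2 := List.all_eq_true.1 okLB2 R h
  rw [Bool.and_eq_true, Bool.and_eq_true, beq_iff, beq_iff] at h2
  have hr := rep_of_LB h
  refine ⟨⟨isM24_spec h1.1, sq_of_isInv hr h2.1, ?_⟩, ?_, ?_⟩
  · apply free_of_card
    have : (fixPts (mkPerm R)).card = fc R := card_fixed hr
    rw [this, h1.2]
  · exact apply_of_getD hr (by norm_num) (by norm_num) h2.2.1
  · exact apply_of_getD hr (by norm_num) (by norm_num) h2.2.2

theorem F0_ncard : {t | t ∈ {t | t ∈ Om ∧ t (pt 23) = pt 0} ∧ t (pt 1) = pt 2}.ncard = 66 := by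
  classical
  have h1 : {t | t ∈ {t | t ∈ Om ∧ t (pt 23) = pt 0} ∧ t (pt 1) = pt 2} = mkPerm '' ((LB.toFinset : Finset (List ℕ)) : Set (List ℕ)) := by
    ext t
    rw [Set.mem_image]
    constructor
    · rintro ⟨⟨⟨h1, h2, h3⟩, h4⟩, h5⟩
      have h6 := sq_apply h2
      obtain ⟨R, hR, hR2⟩ := all4_spec chkB okC2 (g := t) h1 (by
        intro i hi
        simp only [List.mem_cons, List.not_mem_nil, or_false] at hi
        rcases hi with rfl | rfl | rfl | rfl
        · rw [h4]; decide +kernel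
        · rw [← h4, h6]; decide +kernel
        · rw [h5]; decide +kernel
        · rw [← h5, h6]; decide +kernel)
      have h7 : (fixPts t).card = fc R := card_fixed hR
      rw [card_of_free h3] at h7
      rw [isInv_of hR h2, Bool.not_true, Bool.false_or, Bool.or_eq_true, beq_iff, ← h7] at hR2
      rcases hR2 with h | h
      · exact absurd h (by norm_num)
      · refine ⟨R, ?_, hR.valid.symm⟩
        rw [Finset.mem_coe, List.mem_toFinset]; exact memL_spec h
    · rintro ⟨R, hR, rfl⟩
      rw [Finset.mem_coe, List.mem_toFinset] at hR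
      obtain ⟨h1, h2, h3⟩ := mem_Om_of_LB hR
      exact ⟨⟨h1, h2⟩, h3⟩
  rw [h1, Set.ncard_image_of_injOn, Set.ncard_coe_finset, List.toFinset_card_of_nodup LB_nodup, LB_length]
  intro R hR S hS hRS
  rw [Finset.mem_coe, List.mem_toFinset] at hR hS
  have h2 := rep_of_LB hS
  rw [← hRS] at h2
  exact (rep_of_LB hR).unique' h2

theorem fib_conj {h : Equiv.Perm GolayPt} {A B : Set (Equiv.Perm GolayPt)}
    (h1 : ∀ t ∈ A, h * t * h⁻¹ ∈ B) (h2 : ∀ t ∈ B, h⁻¹ * t * h ∈ A) : A.ncard = B.ncard := by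
  have : B = (fun t => h * t * h⁻¹) '' A := by
    ext t
    rw [Set.mem_image]
    constructor
    · intro ht
      exact ⟨_, h2 t ht, by group⟩
    · rintro ⟨s, hs, rfl⟩
      exact h1 s hs
  rw [this, Set.ncard_image_of_injective]
  intro s t hst
  have hst' : h * s * h⁻¹ = h * t * h⁻¹ := hst
  exact mul_left_cancel (mul_right_cancel hst')

theorem conj_apply'' {g h : Equiv.Perm GolayPt} {p q x y : GolayPt} (hp : h p = x) (hq : h q = y) (hg : g x = y) :
    (h⁻¹ * g * h) p = q := by
  show h⁻¹ (g (h p)) = q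
  rw [hp, hg, ← hq]; simp

theorem Om_conj' {h t : Equiv.Perm GolayPt} (hh : h ∈ M24) (ht : t ∈ Om) : h⁻¹ * t * h ∈ Om := by
  have := Om_conj (inv_mem hh) ht
  rwa [inv_inv] at this

theorem F1_ncard : {t | t ∈ Om ∧ t (pt 23) = pt 0}.ncard = 21 * 66 := by
  classical
  have hT : (Finset.univ \ {pt 23, pt 0, pt 1} : Finset GolayPt).card = 21 := by decide +kernel
  have h2301 : pt 23 ≠ pt 0 ∧ pt 23 ≠ pt 1 ∧ pt 0 ≠ pt 1 := by decide +kernel
  rw [← hT]
  apply ncard_fib (Set.toFinite _) (fun t => t (pt 1))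
  · rintro t ⟨ht, h1⟩
    rw [Finset.mem_sdiff]
    refine ⟨Finset.mem_univ _, ?_⟩
    simp only [Finset.mem_insert, Finset.mem_singleton, not_or]
    refine ⟨?_, ?_, ht.2.2 _⟩
    · intro h
      apply h2301.2.2
      rw [← h1, ← h, sq_apply ht.2.1]
    · intro h
      rw [← h1] at h
      exact h2301.2.1 (t.injective h).symm
  · intro y hy
    rw [Finset.mem_sdiff] at hy
    have hy2 := hy.2
    simp only [Finset.mem_insert, Finset.mem_singleton, not_or] at hy2
    obtain ⟨h, hh, e1, e2, e3, e4⟩ := base4 (nodup4 h2301.1 h2301.2.1 (Ne.symm hy2.1) h2301.2.2 (Ne.symm hy2.2.1) (Ne.symm hy2.2.2))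
    rw [← F0_ncard]
    apply fib_conj (h := h)
    · rintro t ⟨⟨ht, h1⟩, h2⟩
      exact ⟨⟨Om_conj hh ht, conj_apply' e1 e2 h1⟩, conj_apply' e3 e4 h2⟩
    · rintro t ⟨⟨ht, h1⟩, h2⟩
      exact ⟨⟨Om_conj' hh ht, conj_apply'' e1 e2 h1⟩, conj_apply'' e3 e4 h2⟩

theorem Om_ncard : Om.ncard = 31878 := by
  classical
  have hT : (Finset.univ \ {pt 23} : Finset GolayPt).card = 23 := by decide +kernel
  have h01 : pt 23 ≠ pt 0 := by decide +kernel
  have : Om.ncard = (Finset.univ \ {pt 23} : Finset GolayPt).card * (21 * 66) := by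
    apply ncard_fib Om_finite (fun t => t (pt 23))
    · intro t ht
      rw [Finset.mem_sdiff, Finset.mem_singleton]
      exact ⟨Finset.mem_univ _, ht.2.2 _⟩
    · intro y hy
      rw [Finset.mem_sdiff, Finset.mem_singleton] at hy
      have : ∃ h ∈ M24, h (pt 23) = pt 23 ∧ h y = pt 0 := by
        obtain ⟨c, hc⟩ : ∃ c : GolayPt, c ∉ ({pt 23, y} : Finset GolayPt) := by
          by_contra hcon
          push Not at hcon
          have h1 : (Finset.univ : Finset GolayPt) ⊆ {pt 23, y} := fun e _ => hcon e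
          have h2 := Finset.card_le_card h1
          have h3 : ({pt 23, y} : Finset GolayPt).card ≤ 2 := Finset.card_le_two
          rw [Finset.card_univ, card_pt] at h2
          omega
        obtain ⟨d, hd⟩ : ∃ c' : GolayPt, c' ∉ ({pt 23, y, c} : Finset GolayPt) := by
          by_contra hcon
          push Not at hcon
          have h1 : (Finset.univ : Finset GolayPt) ⊆ {pt 23, y, c} := fun e _ => hcon e
          have h2 := Finset.card_le_card h1
          have h3 : ({pt 23, y, c} : Finset GolayPt).card ≤ 3 := Finset.card_le_three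
          rw [Finset.card_univ, card_pt] at h2
          omega
        simp only [Finset.mem_insert, Finset.mem_singleton, not_or] at hc hd
        obtain ⟨h, hh, e1, e2, _, _⟩ := base4 (nodup4 (a := pt 23) (b := y) (c := c) (d := d) (Ne.symm hy.2)
          (Ne.symm hc.1) (Ne.symm hd.1) (Ne.symm hc.2) (Ne.symm hd.2.1) (Ne.symm hd.2.2))
        exact ⟨h, hh, e1, e2⟩
      obtain ⟨h, hh, e1, e2⟩ := this
      rw [← F1_ncard]
      apply fib_conj (h := h)
      · rintro t ⟨ht, h2⟩
        exact ⟨Om_conj hh ht, conj_apply' e1 e2 h2⟩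
      · rintro t ⟨ht, h2⟩
        exact ⟨Om_conj' hh ht, conj_apply'' e1 e2 h2⟩
  rw [this, hT]

/-- two members of the class are conjugate in `M24`, moving one point to another -/
theorem Om_trans {s t : Equiv.Perm GolayPt} (hs : s ∈ Om) (ht : t ∈ Om) (p q : GolayPt) :
    ∃ h ∈ M24, h * s * h⁻¹ = t ∧ h p = q := by
  obtain ⟨h, hh, e1, e2⟩ := inv_B hs.1 hs.2.1 hs.2.2 p
  obtain ⟨k, hk, e3, e4⟩ := inv_B ht.1 ht.2.1 ht.2.2 q
  refine ⟨k⁻¹ * h, mul_mem (inv_mem hk) hh, ?_, ?_⟩
  · calc k⁻¹ * h * s * (k⁻¹ * h)⁻¹ = k⁻¹ * (h * s * h⁻¹) * k := by group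
      _ = k⁻¹ * (k * t * k⁻¹) * k := by rw [e2, e4]
      _ = t := by group
  · rw [Equiv.Perm.mul_apply, e1, ← e3]; simp

/-- order of the centraliser -/
theorem card_centralizer {t : Equiv.Perm GolayPt} (ht : t ∈ Om) :
    Nat.card {c : Equiv.Perm GolayPt // c ∈ M24 ∧ c * t = t * c} = 7680 := by
  classical
  let T : ↥M24 := ⟨t, ht.1⟩
  have h1 := MulAction.index_stabilizer (ConjAct ↥M24) T
  have h2 := Subgroup.card_mul_index (MulAction.stabilizer (ConjAct ↥M24) T)
  rw [h1] at h2
  have h3 : (MulAction.orbit (ConjAct ↥M24) T).ncard = 31878 := by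
    rw [← Om_ncard]
    have : Om = Subtype.val '' (MulAction.orbit (ConjAct ↥M24) T) := by
      ext s
      rw [Set.mem_image]
      constructor
      · intro hs
        obtain ⟨h, hh, e, _⟩ := Om_trans ht hs none none
        refine ⟨⟨s, hs.1⟩, ?_, rfl⟩
        rw [MulAction.mem_orbit_iff]
        refine ⟨ConjAct.toConjAct ⟨h, hh⟩, ?_⟩
        rw [ConjAct.toConjAct_smul]
        exact Subtype.ext e
      · rintro ⟨x, hx, rfl⟩
        rw [MulAction.mem_orbit_iff] at hx
        obtain ⟨c, rfl⟩ := hx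
        rw [ConjAct.smul_def]
        exact Om_conj (ConjAct.ofConjAct c).2 ht
    rw [this, Set.ncard_image_of_injective _ Subtype.val_injective]
  have h4 : Nat.card (ConjAct ↥M24) = 244823040 := card_M24
  rw [h3, h4] at h2
  have h5 : Nat.card (MulAction.stabilizer (ConjAct ↥M24) T) = 7680 := by omega
  rw [← h5]
  apply Nat.card_congr
  refine ⟨fun c => ⟨ConjAct.toConjAct ⟨c.1, c.2.1⟩, ?_⟩, fun c => ⟨((ConjAct.ofConjAct c.1 : ↥M24) : Equiv.Perm GolayPt), ?_, ?_⟩, ?_, ?_⟩
  · rw [MulAction.mem_stabilizer_iff, ConjAct.toConjAct_smul]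
    apply Subtype.ext
    show c.1 * t * c.1⁻¹ = t
    rw [c.2.2]; group
  · exact (ConjAct.ofConjAct c.1).2
  · have := c.2
    rw [MulAction.mem_stabilizer_iff, ConjAct.smul_def] at this
    have h6 := congrArg Subtype.val this
    have h7 : ((ConjAct.ofConjAct c.1 : ↥M24) : Equiv.Perm GolayPt) * t *
      ((ConjAct.ofConjAct c.1 : ↥M24) : Equiv.Perm GolayPt)⁻¹ = t := h6
    rw [mul_inv_eq_iff_eq_mul] at h7
    exact h7
  · intro c; rfl
  · intro c; rfl

/-! ### the canonical sextet -/

/-- witnesses that the other fixed sextets have a tetrad which is not invariant -/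
def W : List ℕ := [169, 1048674, 2103297, 524421, 1161, 2098185, 526354, 6273, 2621445, 4718850, 2097193, 593922, 3145761, 2097219, 65681, 794626, 3146753, 1049729, 1098, 195, 2162705, 1048737, 524419, 4202625, 6291713, 2130433, 2228737, 2099217, 131713, 2193, 33409, 33320, 4194689, 49218, 2621443, 6299649, 69761, 49281, 147496, 147585, 131650, 270465, 2359553, 2097221, 262529, 197, 2367489, 2244609, 2166785, 2146305]

theorem W_check : allB (fun s => or (not (and (isSx s) (Nat.beq (xs tBC s) s))) (or (Nat.beq s 1944)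
    (W.any fun m => and (Nat.beq (syn m) s) (and (Nat.beq (pop m) 4) (and (Nat.blt m 16777216) (not (Nat.beq (pmask tB m) m)))))))
    12 0 = true := by decide +kernel

/-- the tetrads of the canonical sextet -/
def V : List ℕ := [10485889, 524358, 1049640, 71696, 4464896, 180736]

theorem V_check : (V.all fun m => and (Nat.beq (syn m) 1944) (and (Nat.beq (pop m) 4) (and (Nat.blt m 16777216) (Nat.beq (pmask tB m) m)))) = true := by
  decide +kernel

theorem V_cover : ∀ p : GolayPt, ∃ m ∈ V, p ∈ fset m := by decide +kernel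

theorem tB_Om : mkPerm tB ∈ Om := (mem_Om_of_LB (by decide +kernel)).1

theorem smul_tB (m : ℕ) : mkPerm tB • fset m = fset (pmask tB m) := smul_fset (valid_of_isM24 oktB) m

/-- all members of the canonical sextet are invariant -/
theorem V_inv {u : Finset GolayPt} (hu : u ∈ sextetOf 1944) : mkPerm tB • u = u := by
  have hc := (mem_sextetOf.1 hu).1
  obtain ⟨p, hp⟩ := Finset.card_pos.1 (show 0 < u.card by omega)
  obtain ⟨m, hm, hpm⟩ := V_cover p
  have h1 := List.all_eq_true.1 V_check m hm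
  rw [Bool.and_eq_true, Bool.and_eq_true, Bool.and_eq_true, beq_iff, beq_iff, Nat.blt_eq, beq_iff] at h1
  have h2 : fset m ∈ sextetOf 1944 := by
    rw [mem_sextetOf, card_fset, sy_fset (by have := h1.2.2.1; omega)]
    exact ⟨h1.2.1, h1.1⟩
  rw [sextetOf_unique hu h2 hp hpm, smul_tB, h1.2.2.2]

theorem V_mem : sextetOf 1944 ∈ sextets := mem_of_isSx (by norm_num) (by decide +kernel)

/-- the canonical sextet is the only one all of whose members are invariant -/
theorem V_unique {S : Finset (Finset GolayPt)} (hS : S ∈ sextets) (h : ∀ u ∈ S, mkPerm tB • u = u) :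
    S = sextetOf 1944 := by
  obtain ⟨t, ht, rfl⟩ := mem_sextets_iff.1 hS
  have h1 : xs tBC (sy t) = sy t := by
    have h2 : mkPerm tB • sextetOf (sy t) = sextetOf (sy t) := by
      ext u
      rw [← Finset.inv_smul_mem_iff]
      constructor
      · intro hu
        have h3 := h _ hu
        rw [smul_inv_smul] at h3
        rwa [← h3] at hu
      · intro hu
        have h3 := h u hu
        rw [← h3, inv_smul_smul, ]; exact hu
    rw [act_sextet tB_ok (sy_lt t)] at h2
    exact (sextets_obj _ (by have := sy_lt t; omega) _ (by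
      have := xs_lt tBC 12 tBC_lt (sy t)
      omega) hS h2.symm).symm
  have h2 := allB_spec _ _ _ W_check (sy t) (Nat.zero_le _) (by have := sy_lt t; omega)
  rw [isSx_of_mem (sy_lt t) hS, beq_iff.2 h1] at h2
  simp only [Bool.and_self, Bool.not_true, Bool.false_or] at h2
  rw [Bool.or_eq_true, beq_iff, List.any_eq_true] at h2
  rcases h2 with h2 | ⟨m, _, h3⟩
  · rw [h2]
  · exfalso
    rw [Bool.and_eq_true, Bool.and_eq_true, Bool.and_eq_true, beq_iff, beq_iff, Nat.blt_eq] at h3
    have hm : m < 2 ^ 24 := by have := h3.2.2.1; omega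
    have h4 : fset m ∈ sextetOf (sy t) := by
      rw [mem_sextetOf, card_fset, sy_fset hm]
      exact ⟨h3.2.1, h3.1⟩
    have h5 := h _ h4
    rw [smul_tB] at h5
    have h6 := fset_injective (pmask_lt (valid_of_isM24 oktB) m) hm h5
    have h7 := h3.2.2.2
    rw [beq_iff.2 h6] at h7
    exact absurd h7 (by decide)

/-- the canonical sextet of a fixed point free involution -/
theorem canonical_sextet {t : Equiv.Perm GolayPt} (ht : t ∈ Om) : ∃ S ∈ sextets, (∀ u ∈ S, t • u = u) ∧
    ∀ S' ∈ sextets, (∀ u ∈ S', t • u = u) → S' = S := by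
  obtain ⟨h, hh, e, _⟩ := Om_trans ht tB_Om none none
  have ht' : t = h⁻¹ * mkPerm tB * h := by rw [← e]; group
  refine ⟨h⁻¹ • sextetOf 1944, smul_mem_sextets (inv_mem hh) V_mem, ?_, ?_⟩
  · intro u hu
    rw [Finset.mem_inv_smul_finset_iff] at hu
    have := V_inv hu
    rw [ht', mul_smul, mul_smul, this, inv_smul_smul]
  · intro S' hS' h2
    have h3 : h • S' = sextetOf 1944 := by
      apply V_unique (smul_mem_sextets hh hS')
      intro u hu
      rw [← Finset.inv_smul_mem_iff] at hu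
      have h4 := h2 _ hu
      rw [← e, mul_smul, mul_smul, h4, smul_inv_smul]
    rw [← h3, inv_smul_smul]

end CfsgLib.InvB28
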