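import Mathlib
import Cfsg.Agent.EqBase
import Cfsg.Agent.LibBlk28
import Cfsg.Agent.LibInvB28

set_option autoImplicit false

/-! The sextet stabiliser (helper28). -/

namespace CfsgLib.Blk28

open Cfsg CfsgLib.Golay CfsgLib.M24 CfsgLib.Restr28 CfsgLib.Syn28 CfsgLib.Six28 CfsgLib.OrbG28 CfsgLib.Qrt28 MulAction
open scoped Pointwise

theorem smul_mem_iff' {S : Finset (Finset GolayPt)} {g : ↥M24} (h : g • S = S) (t : Finset GolayPt) : g • t ∈ S ↔ t ∈ S := by
  constructor
  · intro h1
    have h2 : g • t ∈ g • S := by rw [h]; exact h1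
    exact (Finset.smul_mem_smul_finset_iff _).1 h2
  · intro h1
    have h2 : g • t ∈ g • S := Finset.smul_mem_smul_finset h1
    rwa [h] at h2

/-- action on a set of sets -/
def rhoF (S : Finset (Finset GolayPt)) : ↥(stabilizer ↥M24 S) →* Equiv.Perm ↥S where
  toFun g := (MulAction.toPerm (g : ↥M24) : Equiv.Perm (Finset GolayPt)).subtypePerm (fun t => smul_mem_iff' (g := (g : ↥M24)) g.2 t)
  map_one' := by
    apply Equiv.ext
    intro x
    exact Subtype.ext (one_smul ↥M24 (x : Finset GolayPt))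
  map_mul' g h := by
    apply Equiv.ext
    intro x
    exact Subtype.ext (mul_smul (g : ↥M24) (h : ↥M24) (x : Finset GolayPt))

theorem rhoF_apply {S : Finset (Finset GolayPt)} (g : ↥(stabilizer ↥M24 S)) (t : ↥S) :
    ((rhoF S g t : ↥S) : Finset GolayPt) = (g : ↥M24) • (t : Finset GolayPt) := rfl

theorem ker_rhoF (S : Finset (Finset GolayPt)) : (rhoF S).ker = (kr S).subgroupOf (stabilizer ↥M24 S) := by
  ext g
  rw [MonoidHom.mem_ker, Subgroup.mem_subgroupOf]
  constructor
  · intro h t ht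
    have := congrArg (fun e => ((e ⟨t, ht⟩ : ↥S) : Finset GolayPt)) h
    exact this
  · intro h
    apply Equiv.ext
    intro t
    exact Subtype.ext (h t t.2)

theorem card_kr_mul {S : Finset (Finset GolayPt)} (hs : Function.Surjective (rhoF S)) :
    Nat.card ↥(kr S) * Nat.factorial S.card = Nat.card ↥(stabilizer ↥M24 S) := by
  rw [← Subgroup.card_mul_index (rhoF S).ker, Subgroup.index_ker, MonoidHom.range_eq_top.2 hs, Subgroup.card_top,
    ker_rhoF, Nat.card_congr (Subgroup.subgroupOfEquivOfLe (kr_le S)).toEquiv, Nat.card_perm,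
    Nat.card_eq_fintype_card (α := ↥S), Fintype.card_coe]

/-! ### the transposition -/

/-- a permutation -/
def tP : List ℕ := [18, 7, 22, 3, 6, 17, 4, 1, 8, 9, 10, 13, 21, 11, 15, 14, 16, 5, 0, 19, 20, 12, 2, 23]

/-- the other tetrads -/
def tV : List ℕ := [394, 13631492, 524880, 197664]

theorem tP_ok : isM24 tP = true := by decide +kernel

theorem tV_chk : ((2115585 :: 307200 :: tV).all fun m => and (Nat.beq (syn m) 75) (and (Nat.beq (pop m) 4) (Nat.blt m 16777216))) = true := by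
  decide +kernel

theorem tV_fix : (tV.all fun m => Nat.beq (pmask tP m) m) = true := by decide +kernel

theorem tV_nodup : (2115585 :: 307200 :: tV).Nodup := by decide

theorem smul_tP (m : ℕ) : mkPerm tP • fset m = fset (pmask tP m) := smul_fset (valid_of_isM24 tP_ok) m

theorem tV_mem {m : ℕ} (hm : m ∈ 2115585 :: 307200 :: tV) : m < 2 ^ 24 ∧ (fset m).card = 4 ∧ sy (fset m) = 75 := by
  have h1 := List.all_eq_true.1 tV_chk m hm
  rw [Bool.and_eq_true, Bool.and_eq_true, beq_iff, beq_iff, Nat.blt_eq] at h1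
  refine ⟨h1.2.2, by rw [card_fset]; exact h1.2.1, by rw [sy_fset h1.2.2]; exact h1.1⟩

theorem sextet75 : sextetOf 75 = ((2115585 :: 307200 :: tV).map fset).toFinset := by
  symm
  apply Finset.eq_of_subset_of_card_le
  · intro v hv
    rw [List.mem_toFinset, List.mem_map] at hv
    obtain ⟨m, hm, rfl⟩ := hv
    exact mem_sextetOf.2 ⟨(tV_mem hm).2.1, (tV_mem hm).2.2⟩
  · have h1 : (sextetOf 75).card = 6 := by
      have h2 := tV_mem (m := 2115585) List.mem_cons_self
      rw [← h2.2.2]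
      exact sextetOf_card h2.2.1
    rw [h1, List.toFinset_card_of_nodup]
    · rfl
    · apply List.Nodup.map_on _ tV_nodup
      intro a ha b hb hab
      exact fset_injective (tV_mem ha).1 (tV_mem hb).1 hab

theorem base_swap : ∃ g : ↥M24, ∃ t u : Finset GolayPt, t.card = 4 ∧ u.card = 4 ∧ t ≠ u ∧ sextetOf (sy t) = sextetOf (sy u) ∧
    g • t = u ∧ g • u = t ∧ ∀ v ∈ sextetOf (sy t), v ≠ t → v ≠ u → g • v = v := by
  have h0 := tV_mem (m := 2115585) List.mem_cons_self
  have h1 := tV_mem (m := 307200) (List.mem_cons_of_mem _ List.mem_cons_self)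
  refine ⟨⟨mkPerm tP, isM24_spec tP_ok⟩, fset 2115585, fset 307200, h0.2.1, h1.2.1, ?_, by rw [h0.2.2, h1.2.2], ?_, ?_, ?_⟩
  · intro h
    have := fset_injective h0.1 h1.1 h
    omega
  · show mkPerm tP • fset 2115585 = fset 307200
    rw [smul_tP]
    congr 1
  · show mkPerm tP • fset 307200 = fset 2115585
    rw [smul_tP]
    congr 1
  · intro v hv hv1 hv2
    rw [h0.2.2, sextet75, List.mem_toFinset, List.mem_map] at hv
    obtain ⟨m, hm, rfl⟩ := hv
    rw [List.mem_cons, List.mem_cons] at hm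
    rcases hm with rfl | rfl | hm
    · exact absurd rfl hv1
    · exact absurd rfl hv2
    · have h3 := List.all_eq_true.1 tV_fix m hm
      rw [beq_iff] at h3
      show mkPerm tP • fset m = fset m
      rw [smul_tP, h3]

section
variable {S : Finset (Finset GolayPt)} (hS : S ∈ sextets)

include hS in
theorem sx_disj {t u : Finset GolayPt} (ht : t ∈ S) (hu : u ∈ S) (h : t ≠ u) : Disjoint t u :=
  (sy_of_union (hS.2.1 t ht) (hS.2.1 u hu) (hS.2.2 t ht u hu h)).2

include hS in
theorem sx_stab {g : ↥M24} {t u : Finset GolayPt} (ht : t ∈ S) (hu : u ∈ S) (h : g • t = u) : g • S = S := by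
  rw [eq_sextetOf hS ht]
  have h1 := smul_sextetOf (g := (g : Equiv.Perm GolayPt)) g.2 (t := t)
  have h2 : g • sextetOf (sy t) = sextetOf (sy (g • t)) := h1
  rw [h2, h, ← eq_sextetOf hS hu, eq_sextetOf hS ht]

include hS in
/-- all transpositions of tetrads are induced -/
theorem sx_swap {t u : Finset GolayPt} (ht : t ∈ S) (hu : u ∈ S) (htu : t ≠ u) : ∃ g : ↥M24, g • S = S ∧ g • t = u ∧ g • u = t ∧
    ∀ v ∈ S, v ≠ t → v ≠ u → g • v = v := by
  classical
  obtain ⟨g, t0, u0, ht0, hu0, hne, hs, h1, h2, h3⟩ := base_swap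
  have hS0 := sextetOf_mem ht0
  have ht0m : t0 ∈ sextetOf (sy t0) := mem_sextetOf.2 ⟨ht0, rfl⟩
  have hu0m : u0 ∈ sextetOf (sy t0) := by rw [hs]; exact mem_sextetOf.2 ⟨hu0, rfl⟩
  obtain ⟨x0, hx0⟩ : u0.Nonempty := by rw [← Finset.card_pos, hu0]; norm_num
  obtain ⟨x, hx⟩ : u.Nonempty := by rw [← Finset.card_pos, hS.2.1 u hu]; norm_num
  have hx0t : x0 ∉ t0 := fun h => Finset.disjoint_left.1 (sx_disj hS0 ht0m hu0m hne) h hx0
  have hxt : x ∉ t := fun h => Finset.disjoint_left.1 (sx_disj hS ht hu htu) h hx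
  obtain ⟨k, hk, hk1, hk2⟩ := pair_trans5 (S := t0) (U := {x0}) (S' := t) (U' := {x}) (by rw [ht0, hS.2.1 t ht])
    (by rw [Finset.card_singleton, Finset.card_singleton]) (by
      rw [Finset.inter_singleton_of_notMem hx0t, Finset.inter_singleton_of_notMem hxt]) (by
      refine (Finset.card_union_le _ _).trans ?_
      rw [ht0, Finset.card_singleton])
  let K : ↥M24 := ⟨k, hk⟩
  have hKt : K • t0 = t := hk1
  have hKx : k x0 = x := by
    have : k x0 ∈ k • ({x0} : Finset GolayPt) := Finset.smul_mem_smul_finset (Finset.mem_singleton_self x0)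
    rw [hk2, Finset.mem_singleton] at this
    exact this
  have hKS : K • sextetOf (sy t0) = S := by
    have h4 : K • sextetOf (sy t0) = sextetOf (sy (K • t0)) := smul_sextetOf hk
    rw [h4, hKt, ← eq_sextetOf hS ht]
  have hmem : ∀ v ∈ sextetOf (sy t0), K • v ∈ S := fun v hv => by
    rw [← hKS]; exact Finset.smul_mem_smul_finset hv
  have hKu : K • u0 = u := by
    by_contra hcon
    apply Finset.disjoint_left.1 (sx_disj hS (hmem u0 hu0m) hu hcon) _ hx
    rw [← hKx]
    exact Finset.smul_mem_smul_finset (a := K) hx0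
  have e1 : (K * g * K⁻¹) • t = u := by
    rw [mul_smul, mul_smul, ← hKt, inv_smul_smul, h1, hKu]
  refine ⟨K * g * K⁻¹, sx_stab hS ht hu e1, e1, ?_, ?_⟩
  · rw [mul_smul, mul_smul, ← hKu, inv_smul_smul, h2, hKt]
  · intro v hv hvt hvu
    have h5 : K⁻¹ • v ∈ sextetOf (sy t0) := by
      have : K⁻¹ • v ∈ K⁻¹ • S := Finset.smul_mem_smul_finset hv
      rwa [← hKS, inv_smul_smul] at this
    have h6 := h3 _ h5 (fun h => hvt (by rw [← hKt, ← h, smul_inv_smul])) (fun h => hvu (by rw [← hKu, ← h, smul_inv_smul]))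
    rw [mul_smul, mul_smul, h6, smul_inv_smul]

include hS in
theorem sx_surj : Function.Surjective (rhoF S) := by
  classical
  rw [← MonoidHom.range_eq_top, eq_top_iff, ← Equiv.Perm.closure_isSwap, Subgroup.closure_le]
  rintro σ ⟨t, u, htu, rfl⟩
  obtain ⟨g, h1, h2, h3, h4⟩ := sx_swap hS t.2 u.2 (fun h => htu (Subtype.ext h))
  refine ⟨⟨g, h1⟩, ?_⟩
  apply Equiv.ext
  intro v
  apply Subtype.ext
  rw [rhoF_apply]
  by_cases hvt : v = t
  · rw [hvt, Equiv.swap_apply_left]; exact h2
  · by_cases hvu : v = u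
    · rw [hvu, Equiv.swap_apply_right]; exact h3
    · rw [Equiv.swap_apply_of_ne_of_ne hvt hvu]
      exact h4 v v.2 (fun h => hvt (Subtype.ext h)) (fun h => hvu (Subtype.ext h))

include hS in
theorem card_kr_sx : Nat.card ↥(kr S) = 192 := by
  have h := card_kr_mul (sx_surj hS)
  rw [hS.1, card_stab_sextet hS] at h
  have h6 : Nat.factorial 6 = 720 := by decide
  rw [h6] at h
  omega

end

end CfsgLib.Blk28
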