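import Mathlib
import Cfsg.Agent.EqBase
import Cfsg.Agent.LibBlkB28

set_option autoImplicit false

/-! The normal subgroup of order 64 of the sextet stabiliser (helper28). -/

namespace CfsgLib.Blk28

open Cfsg CfsgLib.Golay CfsgLib.M24 CfsgLib.Restr28 CfsgLib.Syn28 CfsgLib.Six28 CfsgLib.OrbG28 CfsgLib.Qrt28 MulAction
open scoped Pointwise

theorem fx_smul {o t : Finset GolayPt} (h : t ⊆ o) {g : ↥M24} (hg : g ∈ fx o) : g • t = t := by
  apply Finset.eq_of_subset_of_card_le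
  · intro z hz
    obtain ⟨w, hw, rfl⟩ := Finset.mem_smul_finset.1 hz
    have : g • w = w := hg w (h hw)
    rw [this]; exact hw
  · rw [Finset.card_smul_finset]

section
variable {S : Finset (Finset GolayPt)} (hS : S ∈ sextets)

include hS in
theorem sx_EE_card {t u : Finset GolayPt} (ht : t ∈ S) (hu : u ∈ S) (h : t ≠ u) : Nat.card ↥(EE S (t ∪ u)) = 4 := by
  classical
  obtain ⟨v, hv, hvn⟩ : ∃ v ∈ S, v ∉ ({t, u} : Finset (Finset GolayPt)) := by
    by_contra hcon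
    push Not at hcon
    have h1 := Finset.card_le_card (show S ⊆ {t, u} from hcon)
    have h2 := Finset.card_le_two (a := t) (b := u)
    rw [hS.1] at h1
    omega
  simp only [Finset.mem_insert, Finset.mem_singleton, not_or] at hvn
  rw [EE_card (b := v) (hS.2.2 t ht u hu h) _ (fun t ht u hu h => sx_disj hS ht hu h) _ hv _ _, hS.2.1 v hv]
  · intro g hg
    exact sx_stab hS ht ht (fx_smul Finset.subset_union_left hg)
  · intro w hw
    by_cases h1 : w = t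
    · left; rw [h1]; exact Finset.subset_union_left
    · by_cases h2 : w = u
      · left; rw [h2]; exact Finset.subset_union_right
      · right
        rw [Finset.disjoint_union_right]
        exact ⟨sx_disj hS hw ht h1, sx_disj hS hw hu h2⟩
  · rw [Finset.disjoint_union_right]
    exact ⟨sx_disj hS hv ht hvn.1, sx_disj hS hv hu hvn.2⟩
  · rw [← Finset.card_pos, hS.2.1 v hv]; norm_num

theorem EE_kr_conj {t u : Finset GolayPt} (ht : t ∈ S) (hu : u ∈ S) {k : ↥M24} (hk : k ∈ kr S) {a : ↥M24} (ha : a ∈ EE S (t ∪ u)) :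
    k * a * k⁻¹ ∈ EE S (t ∪ u) := by
  have h1 := EE_conj (kr_le S hk) ha
  rwa [Finset.smul_finset_union, hk t ht, hk u hu] at h1

end

/-- the group of order 64 -/
theorem sx_core {S : Finset (Finset GolayPt)} (hS : S ∈ sextets) : ∃ N : Subgroup ↥M24, N ≤ kr S ∧ Nat.card N = 64 ∧
    (∀ x ∈ N, x * x = 1) ∧ ∀ k ∈ kr S, ∀ a ∈ N, k * a * k⁻¹ ∈ N := by
  classical
  obtain ⟨t, ht, u, hu, v, hv, htu, htv, huv⟩ := Finset.two_lt_card.1 (show 2 < S.card by rw [hS.1]; norm_num)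
  have otu := hS.2.2 t ht u hu htu
  have otv := hS.2.2 t ht v hv htv
  have ouv := hS.2.2 u hu v hv huv
  obtain ⟨x, hx⟩ : v.Nonempty := by rw [← Finset.card_pos, hS.2.1 v hv]; norm_num
  have hxo : x ∉ t ∪ u := by
    rw [Finset.mem_union, not_or]
    exact ⟨fun h => Finset.disjoint_left.1 (sx_disj hS ht hv htv) h hx, fun h => Finset.disjoint_left.1 (sx_disj hS hu hv huv) h hx⟩
  have d1 : EE S (t ∪ u) ⊓ EE S (t ∪ v) = ⊥ := EE_inf otu (p := x) (Finset.mem_union_right _ hx) hxo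
  have nA : ∀ k ∈ kr S, ∀ a ∈ EE S (t ∪ u), k * a * k⁻¹ ∈ EE S (t ∪ u) := fun k hk a ha => EE_kr_conj ht hu hk ha
  have nB : ∀ k ∈ kr S, ∀ a ∈ EE S (t ∪ v), k * a * k⁻¹ ∈ EE S (t ∪ v) := fun k hk a ha => EE_kr_conj ht hv hk ha
  have nC : ∀ k ∈ kr S, ∀ a ∈ EE S (u ∪ v), k * a * k⁻¹ ∈ EE S (u ∪ v) := fun k hk a ha => EE_kr_conj hu hv hk ha
  have c1 := comm_of_norm nA nB (EE_le _ _) (EE_le _ _) d1
  have nsup : ∀ A B : Subgroup ↥M24, (∀ a ∈ A, ∀ b ∈ B, a * b = b * a) → (∀ k ∈ kr S, ∀ a ∈ A, k * a * k⁻¹ ∈ A) →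
      (∀ k ∈ kr S, ∀ a ∈ B, k * a * k⁻¹ ∈ B) → ∀ k ∈ kr S, ∀ a ∈ A ⊔ B, k * a * k⁻¹ ∈ A ⊔ B := by
    intro A B hc hA hB k hk x hx
    obtain ⟨a, ha, b, hb, rfl⟩ := mem_sup_of_comm hc hx
    have : k * (a * b) * k⁻¹ = (k * a * k⁻¹) * (k * b * k⁻¹) := by group
    rw [this]
    exact mul_mem (Subgroup.mem_sup_left (hA k hk a ha)) (Subgroup.mem_sup_right (hB k hk b hb))
  have nAB := nsup _ _ c1 nA nB
  have lAB : EE S (t ∪ u) ⊔ EE S (t ∪ v) ≤ kr S := sup_le (EE_le _ _) (EE_le _ _)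
  have d2 : (EE S (t ∪ u) ⊔ EE S (t ∪ v)) ⊓ EE S (u ∪ v) = ⊥ := by
    rw [eq_bot_iff]
    intro g hg
    obtain ⟨hg1, hg2⟩ := Subgroup.mem_inf.1 hg
    obtain ⟨a, ha, b, hb, hab⟩ := mem_sup_of_comm c1 hg1
    rw [Subgroup.mem_bot]
    apply fx_fix otu hxo _ (hg2.1 x (Finset.mem_union_right _ hx))
    intro z hz
    rcases Finset.mem_union.1 hz with h | h
    · rw [hab]
      show (a : Equiv.Perm GolayPt) ((b : Equiv.Perm GolayPt) z) = z
      rw [hb.1 z (Finset.mem_union_left _ h), ha.1 z (Finset.mem_union_left _ h)]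
    · exact hg2.1 z (Finset.mem_union_left _ h)
  have c2 := comm_of_norm nAB nC lAB (EE_le _ _) d2
  refine ⟨(EE S (t ∪ u) ⊔ EE S (t ∪ v)) ⊔ EE S (u ∪ v), sup_le lAB (EE_le _ _), ?_, ?_, nsup _ _ c2 nAB nC⟩
  · rw [card_sup_of_comm c2 d2, card_sup_of_comm c1 d1, sx_EE_card hS ht hu htu, sx_EE_card hS ht hv htv, sx_EE_card hS hu hv huv]
  · exact sq_sup_of_comm c2 (sq_sup_of_comm c1 (EE_sq otu) (EE_sq otv)) (EE_sq ouv)

/-- an involution in a group lies in every normal subgroup of index 3 -/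
theorem mem_of_sq {G : Type*} [Group G] {N K : Subgroup G} (hNK : N ≤ K) (hn : ∀ k ∈ K, ∀ a ∈ N, k * a * k⁻¹ ∈ N)
    (hi : N.relIndex K = 3) {y : G} (hy : y ∈ K) (h2 : y * y = 1) : y ∈ N := by
  haveI : (N.subgroupOf K).Normal := ⟨fun a ha k => Subgroup.mem_subgroupOf.2 (hn k k.2 a (Subgroup.mem_subgroupOf.1 ha))⟩
  have h1 := Subgroup.pow_index_mem (N.subgroupOf K) (⟨y, hy⟩ : K)
  have h3 : (N.subgroupOf K).index = 3 := hi
  rw [h3, Subgroup.mem_subgroupOf] at h1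
  have h4 : y ^ 3 ∈ N := h1
  rw [pow_succ, pow_two, h2, one_mul] at h4
  exact h4

theorem sx_main {S : Finset (Finset GolayPt)} (hS : S ∈ sextets) :
    ∃ N : Subgroup ↥(stabilizer ↥M24 S), N.Normal ∧ Nat.card N = 64 ∧ ∀ x ∈ N, x * x = 1 := by
  obtain ⟨N, hN, h64, hsq, hn⟩ := sx_core hS
  have hi : N.relIndex (kr S) = 3 := by
    have h1 := Subgroup.card_mul_index (N.subgroupOf (kr S))
    rw [Nat.card_congr (Subgroup.subgroupOfEquivOfLe hN).toEquiv, h64, card_kr_sx hS] at h1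
    show (N.subgroupOf (kr S)).index = 3
    omega
  refine ⟨N.subgroupOf (stabilizer ↥M24 S), ⟨?_⟩, ?_, ?_⟩
  · intro a ha g
    rw [Subgroup.mem_subgroupOf] at ha ⊢
    have h1 : (g : ↥M24) * (a : ↥M24) * (g : ↥M24)⁻¹ ∈ kr S := kr_norm g.2 (hN ha)
    apply mem_of_sq hN hn hi h1
    calc (g : ↥M24) * (a : ↥M24) * (g : ↥M24)⁻¹ * ((g : ↥M24) * (a : ↥M24) * (g : ↥M24)⁻¹) =
        (g : ↥M24) * ((a : ↥M24) * (a : ↥M24)) * (g : ↥M24)⁻¹ := by group
      _ = 1 := by rw [hsq _ ha]; group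
  · rw [Nat.card_congr (Subgroup.subgroupOfEquivOfLe (hN.trans (kr_le S))).toEquiv, h64]
  · intro x hx
    exact Subtype.ext (hsq _ (Subgroup.mem_subgroupOf.1 hx))

end CfsgLib.Blk28
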