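import Mathlib
import Cfsg.Agent.EqBase
import Cfsg.Agent.LibBlockR
import Cfsg.Agent.LibBlockIdem
import Cfsg.Agent.LibExtend2
import Cfsg.Agent.LibOnceB19
import Cfsg.Agent.LibFgClass

set_option autoImplicit false
set_option maxHeartbeats 400000
set_option linter.unusedSectionVars false

/-! Extensions of characters in the principal block (helper19) -/

namespace CfsgLib.BlkExt19

open Cfsg CfsgLib.CharBasic CfsgLib.BlockR
open scoped ComplexConjugate

universe u v

/-- two ring homomorphisms on a group graded ring which agree in degree one differ by a character -/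
theorem exists_twist {R F Q : Type*} [Ring R] [Field F] [Group Q] [Finite Q] (D : Q → R → Prop) (h1 : D 1 1)
    (hm : ∀ q r u v, D q u → D r v → D (q * r) (u * v)) (w a : R →+* F) (hwa : ∀ u, D 1 u → w u = a u)
    (hne : ∀ q, ∃ v, D q v ∧ a v ≠ 0) : ∃ b : Q →* F, ∀ q u, D q u → w u = b q * a u := by
  choose v hv hav using hne
  have hpow : ∀ q n, D (q ^ n) (v q ^ n) := by
    intro q n
    induction n with
    | zero => rw [pow_zero, pow_zero]; exact h1
    | succ n ih => rw [pow_succ, pow_succ]; exact hm _ _ _ _ ih (hv q)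
  obtain ⟨m, hmc⟩ : ∃ m, Nat.card Q = m + 1 := ⟨Nat.card Q - 1, (Nat.succ_pred_eq_of_pos Nat.card_pos).symm⟩
  have hq1 : ∀ q : Q, q ^ (m + 1) = 1 := fun q => by rw [← hmc]; exact pow_card_eq_one'
  have hkey : ∀ q u, D q u → a (v q) * w u = a u * w (v q) := by
    intro q u hu
    have e1 : w (v q) ^ (m + 1) = a (v q) ^ (m + 1) := by
      have h2 := hpow q (m + 1)
      rw [hq1] at h2
      have h3 := hwa _ h2
      rwa [map_pow, map_pow] at h3
    have e2 : w (v q) ^ m * w u = a (v q) ^ m * a u := by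
      have h2 := hm _ _ _ _ (hpow q m) hu
      rw [← pow_succ, hq1] at h2
      have h3 := hwa _ h2
      rwa [map_mul, map_mul, map_pow, map_pow] at h3
    have e3 : a (v q) ^ m * (a (v q) * w u) = a (v q) ^ m * (a u * w (v q)) := by
      calc a (v q) ^ m * (a (v q) * w u) = a (v q) ^ (m + 1) * w u := by ring
        _ = w (v q) ^ (m + 1) * w u := by rw [e1]
        _ = (w (v q) ^ m * w u) * w (v q) := by ring
        _ = a (v q) ^ m * (a u * w (v q)) := by rw [e2]; ring
    exact mul_left_cancel₀ (pow_ne_zero _ (hav q)) e3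
  have hdef : ∀ q u, D q u → w u = (w (v q) / a (v q)) * a u := by
    intro q u hu
    rw [div_mul_eq_mul_div, eq_div_iff (hav q), mul_comm (w u), hkey q u hu, mul_comm]
  refine ⟨{ toFun := fun q => w (v q) / a (v q), map_one' := ?_, map_mul' := ?_ }, hdef⟩
  · have h2 := hdef 1 1 h1
    rw [map_one, map_one, mul_one] at h2
    exact h2.symm
  · intro q r
    have h2 := hdef _ _ (hm q r _ _ (hv q) (hv r))
    rw [map_mul, map_mul] at h2
    have h3 : w (v (q * r)) / a (v (q * r)) = (w (v q) * w (v r)) / (a (v q) * a (v r)) := by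
      rw [h2, mul_div_assoc, div_self (mul_ne_zero (hav q) (hav r)), mul_one]
    rw [h3]
    exact mul_div_mul_comm _ _ _ _

/-- lifting characters with values in the residue field -/
theorem exists_lift_hom {p : ℕ} {M : Ideal AlgInt} (hM : IsPModular p M) {Q : Type*} [Group Q] [Finite Q]
    (b : Q →* (AlgInt ⧸ M)) : ∃ β : Q →* ℂˣ, ∀ q, ∃ a : AlgInt, (a : ℂ) = β q ∧ Ideal.Quotient.mk M a = b q := by
  classical
  haveI hp : Fact p.Prime := ⟨hM.1⟩
  haveI := hM.2.1
  letI : Field (AlgInt ⧸ M) := Ideal.Quotient.field M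
  have h0 : ((p : ℕ) : AlgInt ⧸ M) = 0 := by
    have := (Ideal.Quotient.eq_zero_iff_mem (I := M)).2 hM.2.2
    rwa [map_natCast] at this
  haveI hchar : CharP (AlgInt ⧸ M) p := (CharP.charP_iff_prime_eq_zero hM.1).2 h0
  obtain ⟨a, r, hr, hcard⟩ := Nat.exists_eq_pow_mul_and_not_dvd (n := Nat.card Q) Nat.card_pos.ne' p hM.1.ne_one
  have hr0 : 0 < r := Nat.pos_of_ne_zero (by rintro rfl; exact hr (dvd_zero p))
  haveI : NeZero r := ⟨hr0.ne'⟩
  have hb : ∀ q, (b q) ^ r = 1 := by
    intro q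
    have h1 : ((b q) ^ r) ^ (p ^ a) = 1 := by
      rw [← pow_mul, mul_comm, ← hcard, ← map_pow, pow_card_eq_one', map_one]
    have h2 : ((b q) ^ r - 1) ^ (p ^ a) = 0 := by
      rw [sub_pow_char_pow, h1, one_pow, sub_self]
    have h3 := pow_eq_zero_iff (pow_pos hM.1.pos a).ne' |>.1 h2
    exact sub_eq_zero.1 h3
  -- a primitive root
  have hζ := Complex.isPrimitiveRoot_exp r hr0.ne'
  set ζ : ℂ := Complex.exp (2 * Real.pi * Complex.I / r) with hζdef
  set z : AlgInt := ⟨ζ, hζ.isIntegral hr0⟩ with hz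
  have hz1 : IsPrimitiveRoot z r := by
    apply IsPrimitiveRoot.of_map_of_injective (f := AlgInt.val) (k := r) (ζ := z) _ Subtype.val_injective
    exact hζ
  haveI : NeZero ((r : ℕ) : AlgInt) := ⟨by
    intro h
    have h2 : ((r : AlgInt) : ℂ) = 0 := by rw [h]; rfl
    have h3 : (r : ℂ) = 0 := by simpa using h2
    exact hr0.ne' (by exact_mod_cast h3)⟩
  haveI : NeZero ((r : ℕ) : AlgInt ⧸ M) := ⟨by
    rw [Ne, CharP.cast_eq_zero_iff (AlgInt ⧸ M) p r]; exact hr⟩
  have hz2 : IsPrimitiveRoot (Ideal.Quotient.mk M z) r := by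
    rw [← Polynomial.isRoot_cyclotomic_iff, ← Polynomial.map_cyclotomic r (Ideal.Quotient.mk M)]
    exact (Polynomial.isRoot_cyclotomic_iff.2 hz1).map
  have hi : ∀ q, ∃ i : ℕ, (Ideal.Quotient.mk M z) ^ i = b q := by
    intro q
    obtain ⟨i, -, hi⟩ := hz2.eq_pow_of_pow_eq_one (hb q)
    exact ⟨i, hi⟩
  choose i hi using hi
  have hζ0 : ζ ≠ 0 := hζ.ne_zero hr0.ne'
  have hcmp : ∀ m n : ℕ, (Ideal.Quotient.mk M z) ^ m = (Ideal.Quotient.mk M z) ^ n → ζ ^ m = ζ ^ n := by
    have hlt : ∀ m n : ℕ, m ≤ n → (Ideal.Quotient.mk M z) ^ m = (Ideal.Quotient.mk M z) ^ n → ζ ^ m = ζ ^ n := by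
      intro m n hmn h
      obtain ⟨d, rfl⟩ := Nat.exists_eq_add_of_le hmn
      rw [pow_add] at h
      have hne : (Ideal.Quotient.mk M z) ^ m ≠ 0 := pow_ne_zero _ (hz2.ne_zero hr0.ne')
      have h2 : (Ideal.Quotient.mk M z) ^ d = 1 := by
        apply mul_left_cancel₀ hne
        rw [← h, mul_one]
      have h3 := hz2.dvd_of_pow_eq_one d h2
      rw [pow_add, (hζ.pow_eq_one_iff_dvd d).2 h3, mul_one]
    intro m n h
    rcases le_total m n with h1 | h1
    · exact hlt m n h1 h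
    · exact (hlt n m h1 h.symm).symm
  refine ⟨{ toFun := fun q => (Units.mk0 ζ hζ0) ^ i q, map_one' := ?_, map_mul' := ?_ }, fun q => ⟨z ^ i q, ?_, ?_⟩⟩
  · apply Units.ext
    have h1 := hcmp (i 1) 0 (by rw [hi, map_one, pow_zero])
    simpa using h1
  · intro q q'
    apply Units.ext
    have h1 := hcmp (i (q * q')) (i q + i q') (by rw [hi, pow_add, hi, hi, map_mul])
    rw [Units.val_pow_eq_pow_val, Units.val_mul, Units.val_pow_eq_pow_val, Units.val_pow_eq_pow_val, Units.val_mk0, h1, pow_add]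
  · simp [hz]
  · rw [map_pow, hi]

section GrAlg
variable {G : Type u} [Group G] [Finite G] {N : Subgroup G} [hNn : N.Normal]

/-- the `N`-invariant elements of the integral group ring -/
noncomputable def RN (N : Subgroup G) : Subring (MonoidAlgebra ℤ G) := Subring.centralizer (Set.range fun n : N => MonoidAlgebra.single (n : G) (1 : ℤ))

theorem mem_RN {u : MonoidAlgebra ℤ G} : u ∈ RN N ↔ ∀ n : N, MonoidAlgebra.single (n : G) (1 : ℤ) * u = u * MonoidAlgebra.single (n : G) (1 : ℤ) := by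
  rw [RN, Subring.mem_centralizer_iff]
  constructor
  · intro h n
    exact h _ ⟨n, rfl⟩
  · rintro h _ ⟨n, rfl⟩
    exact h n

theorem coeff_conj {u : MonoidAlgebra ℤ G} (hu : u ∈ RN N) (n : N) (y : G) : u.coeff (n * y * (n : G)⁻¹) = u.coeff y := by
  have h1 := congrArg (fun v : MonoidAlgebra ℤ G => v.coeff ((n : G) * y)) (mem_RN.1 hu n)
  simp only [MonoidAlgebra.coeff_single_mul_apply, MonoidAlgebra.coeff_mul_single_apply, inv_mul_cancel_left, one_mul, mul_one] at h1
  exact h1.symm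

theorem mem_RN_of_conj {u : MonoidAlgebra ℤ G} (h : ∀ (n : N) (y : G), u.coeff (n * y * (n : G)⁻¹) = u.coeff y) : u ∈ RN N := by
  rw [mem_RN]
  intro n
  ext y
  rw [MonoidAlgebra.coeff_single_mul_apply, MonoidAlgebra.coeff_mul_single_apply, one_mul, mul_one]
  have h1 := h n ((n : G)⁻¹ * y)
  rw [mul_inv_cancel_left] at h1
  exact h1.symm

/-- degree -/
def Dg (N : Subgroup G) [N.Normal] (q : G ⧸ N) (u : RN N) : Prop := ∀ y : G, (u : MonoidAlgebra ℤ G).coeff y ≠ 0 → (y : G ⧸ N) = q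

theorem Dg_one : Dg N 1 1 := by
  classical
  intro y hy
  by_contra h
  apply hy
  change (1 : MonoidAlgebra ℤ G).coeff y = 0
  rw [MonoidAlgebra.one_def, MonoidAlgebra.coeff_single_apply, if_neg]
  rintro rfl
  exact h rfl

theorem Dg_mul (q r : G ⧸ N) (u v : RN N) (hu : Dg N q u) (hv : Dg N r v) : Dg N (q * r) (u * v) := by
  classical
  intro y hy
  change ((u : MonoidAlgebra ℤ G) * (v : MonoidAlgebra ℤ G)).coeff y ≠ 0 at hy
  rw [MonoidAlgebra.coeff_mul_apply_left, Finsupp.sum] at hy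
  obtain ⟨a, -, ha⟩ := Finset.exists_ne_zero_of_sum_ne_zero hy
  have h1 := hu a (left_ne_zero_of_mul ha)
  have h2 := hv _ (right_ne_zero_of_mul ha)
  rw [← h1, ← h2, ← QuotientGroup.mk_mul, mul_inv_cancel_left]

/-- augmentation -/
noncomputable def aug (G : Type u) [Group G] : MonoidAlgebra ℤ G →ₐ[ℤ] ℤ := MonoidAlgebra.lift ℤ ℤ G 1

theorem aug_eq [Fintype G] (u : MonoidAlgebra ℤ G) : aug G u = ∑ y : G, u.coeff y := by
  rw [aug, MonoidAlgebra.lift_apply, Finsupp.sum_fintype _ _ (by simp)]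
  simp

variable {V : Type v} [AddCommGroup V] [Module ℂ V] [FiniteDimensional ℂ V] (ρ : Representation ℂ G V)

noncomputable def Ar : MonoidAlgebra ℤ G →ₐ[ℤ] (V →ₗ[ℂ] V) := MonoidAlgebra.lift ℤ (V →ₗ[ℂ] V) G ρ

theorem Ar_eq [Fintype G] (u : MonoidAlgebra ℤ G) : Ar ρ u = ∑ y : G, (u.coeff y) • ρ y := by
  rw [Ar, MonoidAlgebra.lift_apply, Finsupp.sum_fintype _ _ (by simp)]

theorem trace_Ar [Fintype G] (u : MonoidAlgebra ℤ G) : LinearMap.trace ℂ V (Ar ρ u) = ∑ y : G, (u.coeff y : ℂ) * ρ.character y := by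
  rw [Ar_eq, map_sum]
  apply Finset.sum_congr rfl
  intro y _
  rw [← Int.cast_smul_eq_zsmul ℂ, map_smul, smul_eq_mul]
  rfl

/-- the restricted representation -/
abbrev rN (N : Subgroup G) : Representation ℂ N V := MonoidHom.comp ρ N.subtype

variable (hirr : Representation.IsIrreducible (rN ρ N))

include hirr in
theorem scal (u : RN N) : ∃ c : ℂ, Ar ρ (u : MonoidAlgebra ℤ G) = c • LinearMap.id := by
  haveI := hirr
  apply schur_scalar (rN ρ N)
  intro n v
  have h1 := congrArg (Ar ρ) (mem_RN.1 u.2 n)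
  rw [map_mul, map_mul] at h1
  have h2 : Ar ρ (MonoidAlgebra.single (n : G) (1 : ℤ)) = ρ n := by
    rw [Ar, MonoidAlgebra.lift_single, one_smul]
  rw [h2] at h1
  exact (congrArg (fun T : V →ₗ[ℂ] V => T v) h1).symm

include hirr in
theorem nontriv : Nontrivial V := by
  haveI := hirr
  exact irr_nontrivial (rN ρ N)

include hirr in
theorem smul_id_inj {c d : ℂ} (h : c • (LinearMap.id : V →ₗ[ℂ] V) = d • LinearMap.id) : c = d := by
  haveI := nontriv ρ hirr
  obtain ⟨v, hv⟩ := exists_ne (0 : V)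
  have h1 := congrArg (fun T : V →ₗ[ℂ] V => T v) h
  change c • v = d • v at h1
  exact smul_left_injective ℂ hv h1

/-- the scalar -/
noncomputable def Om (u : RN N) : ℂ := (scal ρ hirr u).choose

theorem Om_spec (u : RN N) : Ar ρ (u : MonoidAlgebra ℤ G) = Om ρ hirr u • LinearMap.id := (scal ρ hirr u).choose_spec

theorem Om_integral (u : RN N) : IsIntegral ℤ (Om ρ hirr u) := by
  haveI := nontriv ρ hirr
  have h1 : IsIntegral ℤ (u : MonoidAlgebra ℤ G) := IsIntegral.of_finite ℤ _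
  have h2 : IsIntegral ℤ (Ar ρ (u : MonoidAlgebra ℤ G)) := h1.map (Ar ρ)
  have h3 : Ar ρ (u : MonoidAlgebra ℤ G) = algebraMap ℂ (Module.End ℂ V) (Om ρ hirr u) := by
    rw [Om_spec ρ hirr u, Algebra.algebraMap_eq_smul_one]; rfl
  rw [h3] at h2
  exact (isIntegral_algebraMap_iff (FaithfulSMul.algebraMap_injective ℂ (Module.End ℂ V))).1 h2

/-- the scalar as a ring homomorphism -/
noncomputable def Omh : RN N →+* AlgInt where
  toFun u := ⟨Om ρ hirr u, Om_integral ρ hirr u⟩
  map_one' := by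
    apply Subtype.ext
    apply smul_id_inj ρ hirr
    change Om ρ hirr 1 • LinearMap.id = (1 : ℂ) • LinearMap.id
    rw [← Om_spec, one_smul]
    exact map_one (Ar ρ)
  map_mul' u v := by
    apply Subtype.ext
    apply smul_id_inj ρ hirr
    change Om ρ hirr (u * v) • LinearMap.id = (Om ρ hirr u * Om ρ hirr v) • LinearMap.id
    rw [← Om_spec]
    have h1 : Ar ρ ((u * v : RN N) : MonoidAlgebra ℤ G) = Ar ρ (u : MonoidAlgebra ℤ G) * Ar ρ (v : MonoidAlgebra ℤ G) := map_mul (Ar ρ) _ _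
    rw [h1, Om_spec, Om_spec]
    ext x
    change Om ρ hirr u • (Om ρ hirr v • x) = (Om ρ hirr u * Om ρ hirr v) • x
    rw [smul_smul]
  map_zero' := by
    apply Subtype.ext
    apply smul_id_inj ρ hirr
    change Om ρ hirr 0 • LinearMap.id = (0 : ℂ) • LinearMap.id
    rw [← Om_spec, zero_smul]
    exact map_zero (Ar ρ)
  map_add' u v := by
    apply Subtype.ext
    apply smul_id_inj ρ hirr
    change Om ρ hirr (u + v) • LinearMap.id = (Om ρ hirr u + Om ρ hirr v) • LinearMap.id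
    rw [← Om_spec, add_smul, ← Om_spec, ← Om_spec]
    exact map_add (Ar ρ) _ _

theorem Om_val [Fintype G] (u : RN N) : Om ρ hirr u = (∑ y : G, ((u : MonoidAlgebra ℤ G).coeff y : ℂ) * ρ.character y) / ρ.character 1 := by
  haveI := nontriv ρ hirr
  have h1 := congrArg (LinearMap.trace ℂ V) (Om_spec ρ hirr u)
  rw [trace_Ar, map_smul, smul_eq_mul] at h1
  have h2 : LinearMap.trace ℂ V LinearMap.id = ρ.character 1 := by
    rw [Representation.char_one]; exact LinearMap.trace_id ℂ V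
  have h3 : ρ.character 1 ≠ 0 := by
    rw [Representation.char_one]
    have : 0 < Module.finrank ℂ V := Module.finrank_pos
    exact_mod_cast this.ne'
  rw [h1, h2, mul_div_assoc, div_self h3, mul_one]

end GrAlg

theorem class_sum {H : Type u} [Group H] [Fintype H] {M : Ideal AlgInt} (hp : M.IsPrime) {θ : H → ℂ} (hθ : IsIrrCharacter H θ)
    (hB : SameBlock M (fun _ => (1 : ℂ)) θ) (f : H → ℤ) (hf : ∀ a b, f (a * b * a⁻¹) = f b) :
    MemLocalIdeal M ((∑ y : H, (f y : ℂ) * θ y) / θ 1 - ∑ y : H, (f y : ℂ)) := by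
  classical
  letI : Fintype (ConjClasses H) := Fintype.ofFinite _
  have h1 : (∑ y : H, (f y : ℂ) * θ y) / θ 1 - ∑ y : H, (f y : ℂ) = ∑ y : H, (f y : ℂ) * (θ y / θ 1 - 1) := by
    rw [Finset.sum_div, ← Finset.sum_sub_distrib]
    apply Finset.sum_congr rfl
    intro y _
    ring
  rw [h1, ← Finset.sum_fiberwise (s := Finset.univ) (g := fun y : H => ConjClasses.mk y)]
  apply ideal_sum hp
  intro C _
  obtain ⟨x, rfl⟩ := ConjClasses.mk_surjective C
  have h2 : ∀ y ∈ Finset.univ.filter (fun y : H => ConjClasses.mk y = ConjClasses.mk x), (f y : ℂ) * (θ y / θ 1 - 1) = (f x : ℂ) * (θ x / θ 1 - 1) := by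
    intro y hy
    rw [Finset.mem_filter, ConjClasses.mk_eq_mk_iff_isConj, isConj_comm, isConj_iff] at hy
    obtain ⟨-, c, rfl⟩ := hy
    rw [hf, irr_classFun hθ]
  rw [Finset.sum_congr rfl h2, Finset.sum_const, nsmul_eq_mul]
  have h3 : (Finset.univ.filter (fun y : H => ConjClasses.mk y = ConjClasses.mk x)).card = (Subgroup.centralizer ({x} : Set H)).index := by
    rw [← card_class_eq_index x, Nat.card_eq_fintype_card, Fintype.card_subtype]
    congr 1
    ext y
    simp only [Finset.mem_filter, Finset.mem_univ, true_and, ConjClasses.mk_eq_mk_iff_isConj]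
    exact ⟨fun h => h.symm, fun h => h.symm⟩
  rw [h3]
  have h4 := ideal_mul_left hp (ring_int hp (f x)) (ideal_sub_comm (hB x))
  have h5 : (f x : ℂ) * (centralChar θ x - centralChar (fun _ : H => (1 : ℂ)) x) =
      ((Subgroup.centralizer ({x} : Set H)).index : ℂ) * ((f x : ℂ) * (θ x / θ 1 - 1)) := by
    unfold centralChar
    ring
  rwa [h5] at h4

section OrbSum
variable {G : Type u} [Group G] [Finite G] {N : Subgroup G} [hNn : N.Normal]

/-- the sum of a finite set -/
noncomputable def uS (S : Finset G) : MonoidAlgebra ℤ G := ∑ y ∈ S, MonoidAlgebra.single y 1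

open Classical in
theorem coeff_uS (S : Finset G) (y : G) : (uS S).coeff y = if y ∈ S then 1 else 0 := by
  rw [uS, MonoidAlgebra.coeff_sum, Finsupp.finset_sum_apply]
  simp only [MonoidAlgebra.coeff_single_apply]
  rw [Finset.sum_ite_eq' S y (fun _ => (1 : ℤ))]

theorem uS_mem (S : Finset G) (hS : ∀ (n : N) (y : G), y ∈ S → n * y * (n : G)⁻¹ ∈ S) : uS S ∈ RN N := by
  classical
  apply mem_RN_of_conj
  intro n y
  rw [coeff_uS, coeff_uS]
  have h1 : (n * y * (n : G)⁻¹ ∈ S) ↔ y ∈ S := by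
    constructor
    · intro h
      have h2 := hS n⁻¹ _ h
      have h3 : ((n⁻¹ : N) : G) * (n * y * (n : G)⁻¹) * ((n⁻¹ : N) : G)⁻¹ = y := by
        rw [Subgroup.coe_inv]; group
      rwa [h3] at h2
    · exact hS n y
  simp only [h1]

theorem uS_Dg (S : Finset G) (hS : ∀ (n : N) (y : G), y ∈ S → n * y * (n : G)⁻¹ ∈ S) (q : G ⧸ N) (hq : ∀ y ∈ S, (y : G ⧸ N) = q) :
    Dg N q ⟨uS S, uS_mem S hS⟩ := by
  classical
  intro y hy
  change (uS S).coeff y ≠ 0 at hy
  rw [coeff_uS] at hy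
  apply hq
  by_contra h
  rw [if_neg h] at hy
  exact hy rfl

theorem aug_uS [Fintype G] (S : Finset G) : aug G (uS S) = S.card := by
  classical
  rw [aug_eq]
  simp only [coeff_uS]
  rw [Finset.sum_ite_mem, Finset.univ_inter]
  simp

theorem sum_uS [Fintype G] (S : Finset G) (ψ : G → ℂ) : ∑ y : G, ((uS S).coeff y : ℂ) * ψ y = ∑ y ∈ S, ψ y := by
  classical
  simp only [coeff_uS]
  have h1 : ∀ y : G, (((if y ∈ S then (1 : ℤ) else 0) : ℤ) : ℂ) * ψ y = if y ∈ S then ψ y else 0 := by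
    intro y
    split_ifs <;> simp
  rw [Finset.sum_congr rfl fun y _ => h1 y, Finset.sum_ite_mem, Finset.univ_inter]

end OrbSum

end CfsgLib.BlkExt19
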