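import Mathlib
import Cfsg.Agent.LibBlkExt19

set_option autoImplicit false
set_option maxHeartbeats 400000
set_option linter.unusedSectionVars false

/-! Extensions of characters in the principal block, main theorem (helper19) -/

namespace CfsgLib.BlkExt19

open Cfsg CfsgLib.CharBasic CfsgLib.BlockR
open scoped ComplexConjugate Pointwise

universe u v

variable {G : Type u} [Group G] [Finite G] {p : ℕ} [hpf : Fact p.Prime] {M : Ideal AlgInt} (hM : IsPModular p M)
  {N : Subgroup G} [hNn : N.Normal] {V : Type v} [AddCommGroup V] [Module ℂ V] [FiniteDimensional ℂ V] (ρ : Representation ℂ G V)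
  (hirr : Representation.IsIrreducible (rN ρ N))
  (hθ : IsIrrCharacter N (fun n : N => ρ.character n)) (hB : SameBlock M (fun _ : N => (1 : ℂ)) (fun n : N => ρ.character n))

include hM hθ hB in
theorem deg_one (u : RN N) (hu : Dg N 1 u) :
    ((Ideal.Quotient.mk M).comp (Omh ρ hirr)) u = ((Int.castRingHom (AlgInt ⧸ M)).comp ((aug G).toRingHom.comp (RN N).subtype)) u := by
  classical
  letI := Fintype.ofFinite G
  letI := Fintype.ofFinite N
  have hp := isPrime_of_modular hM
  change Ideal.Quotient.mk M (Omh ρ hirr u) = ((aug G (u : MonoidAlgebra ℤ G) : ℤ) : AlgInt ⧸ M)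
  have h1 : ((aug G (u : MonoidAlgebra ℤ G) : ℤ) : AlgInt ⧸ M) = Ideal.Quotient.mk M ((aug G (u : MonoidAlgebra ℤ G) : ℤ) : AlgInt) := by
    rw [map_intCast]
  rw [h1, Ideal.Quotient.mk_eq_mk_iff_sub_mem, ← ideal_algInt_iff hp]
  have h2 : (((Omh ρ hirr u - ((aug G (u : MonoidAlgebra ℤ G) : ℤ) : AlgInt) : AlgInt)) : ℂ) = Om ρ hirr u - ((aug G (u : MonoidAlgebra ℤ G) : ℤ) : ℂ) := by
    push_cast
    rfl
  rw [h2, Om_val, aug_eq]
  have hsupp : ∀ y : G, y ∉ N → (u : MonoidAlgebra ℤ G).coeff y = 0 := by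
    intro y hy
    by_contra h
    exact hy ((QuotientGroup.eq_one_iff y).1 (hu y h))
  have hsum : ∀ F : G → ℂ, (∀ y, y ∉ N → F y = 0) → ∑ y : G, F y = ∑ y : N, F y := by
    intro F hF
    rw [← Finset.sum_subtype (Finset.univ.filter (fun g => g ∈ N)) (p := fun g => g ∈ N) (by simp) F]
    symm
    apply Finset.sum_subset (Finset.filter_subset _ _)
    intro g _ hg
    exact hF g (by simpa using hg)
  have h3 := class_sum hp hθ hB (fun y : N => (u : MonoidAlgebra ℤ G).coeff (y : G)) (fun a b => coeff_conj u.2 a (b : G))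
  rw [hsum _ (fun y hy => by rw [hsupp y hy]; simp)]
  push_cast
  rw [hsum (fun y => ((u : MonoidAlgebra ℤ G).coeff y : ℂ)) (fun y hy => by rw [hsupp y hy]; simp)]
  exact h3

/-- orbits of elements centralizing a Sylow subgroup of `N` -/
theorem orbit_card (P : Sylow p N) {c : G} (hc : c ∈ Subgroup.centralizer (((P : Subgroup N).map N.subtype : Subgroup G) : Set G))
    [Fintype G] [DecidablePred fun y : G => ∃ n : N, y = n * c * (n : G)⁻¹] :
    ¬ p ∣ (Finset.univ.filter (fun y : G => ∃ n : N, y = n * c * (n : G)⁻¹)).card := by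
  classical
  letI : MulAction N G := MulAction.compHom G ((MulAut.conj : G →* MulAut G).comp N.subtype)
  have hsm : ∀ (n : N) (y : G), n • y = n * y * (n : G)⁻¹ := fun n y => rfl
  have h1 : (Finset.univ.filter (fun y : G => ∃ n : N, y = n * c * (n : G)⁻¹)).card = (MulAction.stabilizer N c).index := by
    rw [MulAction.index_stabilizer, ← Set.ncard_coe_finset]
    congr 1
    ext y
    simp only [Finset.coe_filter, Finset.mem_univ, true_and, Set.mem_setOf_eq, MulAction.mem_orbit_iff]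
    constructor
    · rintro ⟨n, rfl⟩
      exact ⟨n, hsm n c⟩
    · rintro ⟨n, rfl⟩
      exact ⟨n, hsm n c⟩
  rw [h1]
  intro hd
  have h2 : (P : Subgroup N) ≤ MulAction.stabilizer N c := by
    intro x hx
    rw [MulAction.mem_stabilizer_iff, hsm]
    have h3 := (Subgroup.mem_centralizer_iff.1 hc) (x : G) ⟨x, hx, rfl⟩
    rw [h3, mul_inv_cancel_right]
  exact P.not_dvd_index (hd.trans (Subgroup.index_dvd_of_le h2))

include hM hθ hB in
theorem exists_beta (P : Sylow p N) (hcov : N ⊔ Subgroup.centralizer (((P : Subgroup N).map N.subtype : Subgroup G) : Set G) = ⊤) :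
    ∃ β : (G ⧸ N) →* ℂˣ, ∀ (q : G ⧸ N) (u : RN N), Dg N q u →
      MemLocalIdeal M (Om ρ hirr u - (β q : ℂ) * ((aug G (u : MonoidAlgebra ℤ G) : ℤ) : ℂ)) ∧ MemLocalRing M (((β q)⁻¹ : ℂˣ) : ℂ) := by
  classical
  letI := Fintype.ofFinite G
  have hp := isPrime_of_modular hM
  haveI := hM.2.1
  letI : Field (AlgInt ⧸ M) := Ideal.Quotient.field M
  have h0 : ((p : ℕ) : AlgInt ⧸ M) = 0 := by
    have := (Ideal.Quotient.eq_zero_iff_mem (I := M)).2 hM.2.2
    rwa [map_natCast] at this
  haveI hchar : CharP (AlgInt ⧸ M) p := (CharP.charP_iff_prime_eq_zero hM.1).2 h0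
  obtain ⟨b, hb⟩ := exists_twist (Dg N) Dg_one Dg_mul ((Ideal.Quotient.mk M).comp (Omh ρ hirr))
    ((Int.castRingHom (AlgInt ⧸ M)).comp ((aug G).toRingHom.comp (RN N).subtype)) (fun u hu => deg_one hM ρ hirr hθ hB u hu) (by
      intro q
      obtain ⟨g, rfl⟩ := QuotientGroup.mk_surjective q
      have hg : g ∈ N ⊔ Subgroup.centralizer (((P : Subgroup N).map N.subtype : Subgroup G) : Set G) := by rw [hcov]; trivial
      have hg' : g ∈ ((N : Set G) * ((Subgroup.centralizer (((P : Subgroup N).map N.subtype : Subgroup G) : Set G) : Subgroup G) : Set G)) := by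
        rw [← Subgroup.normal_mul]; exact hg
      obtain ⟨n, hn, c, hc, rfl⟩ := hg'
      set S := Finset.univ.filter (fun y : G => ∃ n : N, y = n * c * (n : G)⁻¹) with hS
      have hSi : ∀ (m : N) (y : G), y ∈ S → m * y * (m : G)⁻¹ ∈ S := by
        intro m y hy
        rw [hS, Finset.mem_filter] at hy ⊢
        obtain ⟨-, x, rfl⟩ := hy
        refine ⟨Finset.mem_univ _, m * x, ?_⟩
        rw [Subgroup.coe_mul]; group
      refine ⟨⟨uS S, uS_mem S hSi⟩, uS_Dg S hSi _ ?_, ?_⟩
      · intro y hy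
        rw [hS, Finset.mem_filter] at hy
        obtain ⟨-, x, rfl⟩ := hy
        change ((x * c * (x : G)⁻¹ : G) : G ⧸ N) = ((n * c : G) : G ⧸ N)
        rw [QuotientGroup.mk_mul, QuotientGroup.mk_mul, QuotientGroup.mk_mul, (QuotientGroup.eq_one_iff (x : G)).2 x.2,
          (QuotientGroup.eq_one_iff n).2 hn, QuotientGroup.mk_inv, (QuotientGroup.eq_one_iff (x : G)).2 x.2, one_mul, inv_one, mul_one]
      · change ((aug G (uS S) : ℤ) : AlgInt ⧸ M) ≠ 0
        rw [aug_uS, Int.cast_natCast, Ne, CharP.cast_eq_zero_iff (AlgInt ⧸ M) p]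
        exact orbit_card P hc)
  obtain ⟨β, hβ⟩ := exists_lift_hom hM b
  refine ⟨β, fun q u hu => ⟨?_, ?_⟩⟩
  · obtain ⟨a, ha1, ha2⟩ := hβ q
    have h1 := hb q u hu
    change Ideal.Quotient.mk M (Omh ρ hirr u) = b q * ((aug G (u : MonoidAlgebra ℤ G) : ℤ) : AlgInt ⧸ M) at h1
    rw [← ha2] at h1
    have h2 : ((aug G (u : MonoidAlgebra ℤ G) : ℤ) : AlgInt ⧸ M) = Ideal.Quotient.mk M ((aug G (u : MonoidAlgebra ℤ G) : ℤ) : AlgInt) := by
      rw [map_intCast]
    rw [h2, ← map_mul, Ideal.Quotient.mk_eq_mk_iff_sub_mem, ← ideal_algInt_iff hp] at h1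
    have h3 : (((Omh ρ hirr u - a * ((aug G (u : MonoidAlgebra ℤ G) : ℤ) : AlgInt) : AlgInt)) : ℂ) =
        Om ρ hirr u - (β q : ℂ) * ((aug G (u : MonoidAlgebra ℤ G) : ℤ) : ℂ) := by
      rw [← ha1]
      push_cast
      rfl
    rwa [h3] at h1
  · obtain ⟨a, ha1, -⟩ := hβ q⁻¹
    have h1 : (((β q)⁻¹ : ℂˣ) : ℂ) = (a : ℂ) := by rw [ha1, map_inv]
    rw [h1]
    exact ring_algInt hp a

include hM hθ hB hirr in
/-- the twisted character behaves like the principal character on `N`-invariant sets -/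
theorem exists_ext (P : Sylow p N) (hcov : N ⊔ Subgroup.centralizer (((P : Subgroup N).map N.subtype : Subgroup G) : Set G) = ⊤) :
    ∃ l : G →* ℂˣ, (∀ n ∈ N, l n = 1) ∧ ∀ S : Finset G, (∀ (n : N) (y : G), y ∈ S → n * y * (n : G)⁻¹ ∈ S) →
      MemLocalIdeal M ((∑ y ∈ S, (l y : ℂ) * ρ.character y) / ρ.character 1 - (S.card : ℂ)) := by
  classical
  letI := Fintype.ofFinite G
  letI : Fintype (G ⧸ N) := Fintype.ofFinite _
  have hp := isPrime_of_modular hM
  obtain ⟨β, hβ⟩ := exists_beta hM ρ hirr hθ hB P hcov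
  refine ⟨(β.comp (QuotientGroup.mk' N))⁻¹, ?_, ?_⟩
  · intro n hn
    change (β (n : G ⧸ N))⁻¹ = 1
    rw [(QuotientGroup.eq_one_iff n).2 hn, map_one, inv_one]
  · intro S hS
    have h1 : (∑ y ∈ S, (((β.comp (QuotientGroup.mk' N))⁻¹ y : ℂˣ) : ℂ) * ρ.character y) / ρ.character 1 - (S.card : ℂ) =
        ∑ q : G ⧸ N, (((β q)⁻¹ : ℂˣ) : ℂ) * ((∑ y ∈ S.filter (fun y : G => (y : G ⧸ N) = q), ρ.character y) / ρ.character 1 -
          (β q : ℂ) * ((S.filter (fun y : G => (y : G ⧸ N) = q)).card : ℂ)) := by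
      have h2 : ∀ q : G ⧸ N, (((β q)⁻¹ : ℂˣ) : ℂ) * ((∑ y ∈ S.filter (fun y : G => (y : G ⧸ N) = q), ρ.character y) / ρ.character 1 -
          (β q : ℂ) * ((S.filter (fun y : G => (y : G ⧸ N) = q)).card : ℂ)) =
          ∑ y ∈ S.filter (fun y : G => (y : G ⧸ N) = q), ((((β.comp (QuotientGroup.mk' N))⁻¹ y : ℂˣ) : ℂ) * ρ.character y / ρ.character 1 - 1) := by
        intro q
        rw [Finset.sum_sub_distrib, Finset.sum_const, nsmul_eq_mul, mul_one, mul_sub, ← mul_assoc, Units.inv_mul, one_mul, Finset.sum_div,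
          Finset.mul_sum]
        congr 1
        apply Finset.sum_congr rfl
        intro y hy
        rw [Finset.mem_filter] at hy
        have h3 : ((β.comp (QuotientGroup.mk' N))⁻¹ y : ℂˣ) = (β q)⁻¹ := by
          rw [← hy.2]; rfl
        rw [h3, mul_div_assoc]
      rw [Finset.sum_congr rfl fun q _ => h2 q, Finset.sum_fiberwise, Finset.sum_sub_distrib, Finset.sum_const, nsmul_eq_mul, mul_one, Finset.sum_div]
    rw [h1]
    apply ideal_sum hp
    intro q _
    have hSq : ∀ (n : N) (y : G), y ∈ S.filter (fun y : G => (y : G ⧸ N) = q) → n * y * (n : G)⁻¹ ∈ S.filter (fun y : G => (y : G ⧸ N) = q) := by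
      intro n y hy
      rw [Finset.mem_filter] at hy ⊢
      refine ⟨hS n y hy.1, ?_⟩
      rw [QuotientGroup.mk_mul, QuotientGroup.mk_mul, QuotientGroup.mk_inv, (QuotientGroup.eq_one_iff (n : G)).2 n.2, one_mul, inv_one, mul_one]
      exact hy.2
    have h2 := hβ q ⟨uS _, uS_mem _ hSq⟩ (uS_Dg _ hSq q (fun y hy => (Finset.mem_filter.1 hy).2))
    refine ideal_mul_left hp h2.2 ?_
    have h3 := h2.1
    rw [Om_val] at h3
    change MemLocalIdeal M ((∑ y : G, ((uS (S.filter (fun y : G => (y : G ⧸ N) = q))).coeff y : ℂ) * ρ.character y) / ρ.character 1 -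
      (β q : ℂ) * ((aug G (uS (S.filter (fun y : G => (y : G ⧸ N) = q))) : ℤ) : ℂ)) at h3
    rw [sum_uS, aug_uS, Int.cast_natCast] at h3
    exact h3

theorem main (P : Sylow p N) (hcov : N ⊔ Subgroup.centralizer (((P : Subgroup N).map N.subtype : Subgroup G) : Set G) = ⊤)
    (hM : IsPModular p M) (θ : IrrCharacter N) (hθB : θ ∈ principalBlock M N)
    (hext : ∃ ψ : IrrCharacter G, ∀ x : N, (ψ : G → ℂ) x = (θ : N → ℂ) x) :
    ∃ χ : IrrCharacter G, χ ∈ principalBlock M G ∧ (∀ x : N, (χ : G → ℂ) x = (θ : N → ℂ) x) ∧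
      ∀ J : Subgroup G, N ≤ J → ∃ ξ : IrrCharacter J, ξ ∈ principalBlock M J ∧ ∀ y : J, (ξ : J → ℂ) y = (χ : G → ℂ) y := by
  classical
  letI := Fintype.ofFinite G
  letI := Fintype.ofFinite N
  have hp := isPrime_of_modular hM
  obtain ⟨⟨ψ, hψ⟩, hψθ⟩ := hext
  have hψ' := hψ
  obtain ⟨m, ρ, hρ, hρψ⟩ := hψ'
  have hres : (fun n : N => ρ.character n) = (θ : N → ℂ) := by
    ext n
    rw [hρψ]
    exact hψθ n
  have hθ' : IsIrrCharacter N (fun n : N => ρ.character n) := by rw [hres]; exact θ.2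
  have hirr : Representation.IsIrreducible (rN ρ N) := CfsgLib.Extend.isIrreducible_of_char (rN ρ N) hθ'
  have hB : SameBlock M (fun _ : N => (1 : ℂ)) (fun n : N => ρ.character n) := by rw [hres]; exact hθB
  obtain ⟨l, hl, hlS⟩ := exists_ext hM ρ hirr hθ' hB P hcov
  have hχ : IsIrrCharacter G (fun g => (l g : ℂ) * ψ g) := CfsgLib.Once19.irr_mul_lin hψ l
  rw [hρψ] at hlS
  have hχN : ∀ x : N, (fun g => (l g : ℂ) * ψ g) x = (θ : N → ℂ) x := by
    intro x
    change (l x : ℂ) * ψ x = _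
    rw [hl x x.2, Units.val_one, one_mul]
    exact hψθ x
  have hl1 : (fun g => (l g : ℂ) * ψ g) 1 = ψ 1 := by
    change (l 1 : ℂ) * ψ 1 = ψ 1
    rw [map_one, Units.val_one, one_mul]
  refine ⟨⟨_, hχ⟩, ?_, hχN, ?_⟩
  · intro y
    have h1 := hlS (Finset.univ.filter (fun z : G => IsConj y z)) (by
      intro n z hz
      rw [Finset.mem_filter] at hz ⊢
      refine ⟨Finset.mem_univ _, hz.2.trans ?_⟩
      rw [isConj_iff]
      exact ⟨n, rfl⟩)
    have hcard : (Finset.univ.filter (fun z : G => IsConj y z)).card = (Subgroup.centralizer ({y} : Set G)).index := by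
      rw [← card_class_eq_index y, Nat.card_eq_fintype_card, Fintype.card_subtype]
    have hsum : ∑ z ∈ Finset.univ.filter (fun z : G => IsConj y z), (l z : ℂ) * ψ z = ((Subgroup.centralizer ({y} : Set G)).index : ℂ) * ((l y : ℂ) * ψ y) := by
      rw [← hcard, ← nsmul_eq_mul, ← Finset.sum_const]
      apply Finset.sum_congr rfl
      intro z hz
      obtain ⟨c, rfl⟩ := isConj_iff.1 (Finset.mem_filter.1 hz).2
      exact irr_classFun hχ y c
    rw [hsum, hcard] at h1
    have h2 : centralChar (fun g => (l g : ℂ) * ψ g) y = ((Subgroup.centralizer ({y} : Set G)).index : ℂ) * ((l y : ℂ) * ψ y) / ψ 1 := by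
      unfold centralChar
      congr 1
    have h3 : centralChar (fun _ : G => (1 : ℂ)) y = ((Subgroup.centralizer ({y} : Set G)).index : ℂ) := by
      unfold centralChar; simp
    change MemLocalIdeal M (centralChar (fun _ : G => (1 : ℂ)) y - centralChar (fun g => (l g : ℂ) * ψ g) y)
    rw [h2, h3]
    exact ideal_sub_comm h1
  · intro J hNJ
    letI := Fintype.ofFinite J
    have hc : IsCharacter J (fun y : J => (fun g => (l g : ℂ) * ψ g) y) := isCharacter_restrict (irr_isCharacter hχ) J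
    have hξ : IsIrrCharacter J (fun y : J => (fun g => (l g : ℂ) * ψ g) y) := by
      apply CfsgLib.Extend.irr_of_restrict hc (N.subgroupOf J)
      have h1 := isIrrCharacter_comp_surj θ.2 (Subgroup.subgroupOfEquivOfLe hNJ).toMonoidHom (Subgroup.subgroupOfEquivOfLe hNJ).surjective
      convert h1 using 1
      ext x
      exact hχN (Subgroup.subgroupOfEquivOfLe hNJ x)
    refine ⟨⟨_, hξ⟩, ?_, fun y => rfl⟩
    intro y
    have h1 := hlS ((Finset.univ.filter (fun z : J => IsConj y z)).image Subtype.val) (by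
      intro n z hz
      rw [Finset.mem_image] at hz ⊢
      obtain ⟨z', hz', rfl⟩ := hz
      refine ⟨⟨n, hNJ n.2⟩ * z' * (⟨n, hNJ n.2⟩ : J)⁻¹, ?_, rfl⟩
      rw [Finset.mem_filter] at hz' ⊢
      refine ⟨Finset.mem_univ _, hz'.2.trans ?_⟩
      rw [isConj_iff]
      exact ⟨⟨n, hNJ n.2⟩, rfl⟩)
    rw [Finset.card_image_of_injective _ Subtype.val_injective, Finset.sum_image (fun a _ b _ h => Subtype.ext h)] at h1
    have hcard : (Finset.univ.filter (fun z : J => IsConj y z)).card = (Subgroup.centralizer ({y} : Set J)).index := by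
      rw [← card_class_eq_index y, Nat.card_eq_fintype_card, Fintype.card_subtype]
    have hsum : ∑ z ∈ Finset.univ.filter (fun z : J => IsConj y z), (l z : ℂ) * ψ z = ((Subgroup.centralizer ({y} : Set J)).index : ℂ) * ((l y : ℂ) * ψ y) := by
      rw [← hcard, ← nsmul_eq_mul, ← Finset.sum_const]
      apply Finset.sum_congr rfl
      intro z hz
      obtain ⟨c, rfl⟩ := isConj_iff.1 (Finset.mem_filter.1 hz).2
      exact irr_classFun hξ y c
    rw [hsum, hcard] at h1
    have h2 : centralChar (fun y : J => (l y : ℂ) * ψ y) y = ((Subgroup.centralizer ({y} : Set J)).index : ℂ) * ((l y : ℂ) * ψ y) / ψ 1 := by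
      unfold centralChar
      congr 1
    have h3 : centralChar (fun _ : J => (1 : ℂ)) y = ((Subgroup.centralizer ({y} : Set J)).index : ℂ) := by
      unfold centralChar; simp
    change MemLocalIdeal M (centralChar (fun _ : J => (1 : ℂ)) y - centralChar (fun y : J => (l y : ℂ) * ψ y) y)
    rw [h2, h3]
    exact ideal_sub_comm h1

end CfsgLib.BlkExt19
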