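import Mathlib
import Cfsg.Agent.EqBase
import Cfsg.Prelude.Def_Blocks
import Cfsg.Agent.LibBlockFong2
import Cfsg.Agent.LibBlockH2

/-!
# Blocks of `G = P C_G(P)` with defect group `P`: S0968 (helper17)
-/

set_option autoImplicit false
set_option linter.unusedSectionVars false
set_option linter.style.haveILetI false
set_option linter.unusedSimpArgs false

namespace CfsgLib.BlockPC

open CfsgLib.CharInt hiding irr_isCharacter irr_classFun irr_one_ne_zero schur_scalar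
open Cfsg CfsgLib.CharInt2 CfsgLib.CharBasic CfsgLib.BlockR CfsgLib.BlockCore
  CfsgLib.BlockIdem CfsgLib.BlockIdeal CfsgLib.BlockConj CfsgLib.BlockBrauer CfsgLib.BlockInd
  CfsgLib.BlockFMT CfsgLib.BlockFMT2 CfsgLib.PLocalInd CfsgLib.BlockOrth CfsgLib.BlockDefect
  CfsgLib.BlockReg CfsgLib.BlockReg2 CfsgLib.BlockCount CfsgLib.BlockCount2 CfsgLib.BlockQP
  CfsgLib.BlockCov CfsgLib.BlockCov2 CfsgLib.BlockCov3 CfsgLib.BlockCov4 CfsgLib.BlockLoc
  CfsgLib.BlockM CfsgLib.CharNorm CfsgLib.Clifford CfsgLib.BlockFR CfsgLib.BlockD2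
  CfsgLib.BlockK1 CfsgLib.BlockSec3 CfsgLib.BlockFong CfsgLib.BlockH2
open scoped ComplexConjugate Pointwise

universe u v

variable {M : Ideal AlgInt} {p : ℕ} [Fact p.Prime] {G : Type u} [Group G] [Fintype G]

section PC

variable {P : Subgroup G} (hPp : IsPGroup p P) (hG : P ⊔ Subgroup.centralizer (P : Set G) = ⊤)

include hG in
theorem normal_of_PC : P.Normal := by
  rw [← Subgroup.normalizer_eq_top_iff, eq_top_iff, ← hG]
  exact sup_le Subgroup.le_normalizer (CfsgLib.BrP.centralizer_le_normalizer P)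

variable [hPn : P.Normal]

include hG in
theorem exists_pc (g : G) : ∃ u ∈ P, ∃ c ∈ Subgroup.centralizer (P : Set G), g = u * c := by
  have hg : g ∈ P ⊔ Subgroup.centralizer (P : Set G) := by rw [hG]; trivial
  rw [Subgroup.mem_sup_of_normal_left] at hg
  obtain ⟨u, hu, c, hc, h⟩ := hg
  exact ⟨u, hu, c, hc, h.symm⟩

include hPp hG in
theorem index_cent : ∃ k : ℕ, (Subgroup.centralizer (P : Set G)).index = p ^ k := by
  have h1 : (Subgroup.centralizer (P : Set G)).relIndex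
      (P ⊔ Subgroup.centralizer (P : Set G)) =
      (Subgroup.centralizer (P : Set G)).relIndex P :=
    Subgroup.relIndex_sup_right P (Subgroup.centralizer (P : Set G))
  rw [hG, Subgroup.relIndex_top_right] at h1
  rw [h1]
  have h2 : ((Subgroup.centralizer (P : Set G)).subgroupOf P).index ∣ Nat.card P :=
    Subgroup.index_dvd_card _
  obtain ⟨n, hn⟩ := hPp.exists_card_eq
  rw [hn] at h2
  obtain ⟨k, -, hk⟩ := (Nat.dvd_prime_pow Fact.out).mp h2
  exact ⟨k, hk⟩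

include hPp hG in
theorem reg_mem_cent {g : G} (hg : ¬ p ∣ orderOf g) : g ∈ Subgroup.centralizer (P : Set G) := by
  haveI := Fintype.ofFinite (Subgroup.centralizer (P : Set G))
  exact mem_of_reg_of_pindex _ (index_cent hPp hG) hg

include hPp hG in
theorem reg_lift_unique {y y' : G} (hy : ¬ p ∣ orderOf y) (hy' : ¬ p ∣ orderOf y')
    (h : (y : G ⧸ P) = (y' : G ⧸ P)) : y = y' := by
  have h1 : y⁻¹ * y' ∈ P := QuotientGroup.eq.mp h
  have hyC := reg_mem_cent hPp hG hy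
  have hc : Commute y (y⁻¹ * y') := by
    rw [Subgroup.mem_centralizer_iff] at hyC
    exact (hyC _ h1).symm
  have h2 := eq_one_of_reg_mul hc (exists_pow_of_isPGroup hPp h1) hy
    (by rw [mul_inv_cancel_left]; exact hy')
  rw [inv_mul_eq_one] at h2
  exact h2

/-- the values on `p`-regular elements, as a class function of the quotient -/
noncomputable def push (P : Subgroup G) [P.Normal] (p : ℕ) (χ : G → ℂ) : G ⧸ P → ℂ :=
  open Classical in fun x =>
    if h : ∃ g : G, ¬ p ∣ orderOf g ∧ (g : G ⧸ P) = x then χ h.choose else 0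

include hPp hG in
theorem push_apply (χ : G → ℂ) {y : G} (hy : ¬ p ∣ orderOf y) : push P p χ (y : G ⧸ P) = χ y := by
  unfold push
  have h : ∃ g : G, ¬ p ∣ orderOf g ∧ (g : G ⧸ P) = (y : G ⧸ P) := ⟨y, hy, rfl⟩
  rw [dif_pos h]
  congr 1
  exact reg_lift_unique hPp hG h.choose_spec.1 hy h.choose_spec.2

include hPp hG in
theorem push_classFun {χ : G → ℂ} (hχ : IsClassFunction G χ) :
    IsClassFunction (G ⧸ P) (push P p χ) := by
  intro x t
  obtain ⟨s, rfl⟩ := QuotientGroup.mk_surjective t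
  by_cases h : ∃ g : G, ¬ p ∣ orderOf g ∧ (g : G ⧸ P) = x
  · obtain ⟨g, hg, rfl⟩ := h
    have h1 : ((s : G ⧸ P) * (g : G ⧸ P) * (s : G ⧸ P)⁻¹) = ((s * g * s⁻¹ : G) : G ⧸ P) := rfl
    rw [h1, push_apply hPp hG χ hg, push_apply hPp hG χ (by rw [orderOf_conj]; exact hg), hχ]
  · have h' : ¬ ∃ g : G, ¬ p ∣ orderOf g ∧ (g : G ⧸ P) = (s : G ⧸ P) * x * (s : G ⧸ P)⁻¹ := by
      rintro ⟨g, hg, hgx⟩
      apply h
      refine ⟨s⁻¹ * g * s, ?_, ?_⟩
      · have := orderOf_conj g s⁻¹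
        rw [inv_inv] at this
        rw [this]; exact hg
      · show (s : G ⧸ P)⁻¹ * (g : G ⧸ P) * (s : G ⧸ P) = x
        rw [hgx]; group
    unfold push
    rw [dif_neg h, dif_neg h']

include hPp hG in
/-- on `p`-regular elements a member of `B` is a multiple of the canonical character -/
theorem reg_multiple (hM : IsPModular p M) {B : Set (IrrCharacter G)} (hB : IsPBlock M B)
    {θ : IrrCharacter G} (hθ : θ ∈ B)
    (huniq : ∀ ξ : IrrCharacter (G ⧸ P), infl P ξ ∈ B → infl P ξ = θ)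
    {χ : IrrCharacter G} (hχ : χ ∈ B) {y : G} (hy : ¬ p ∣ orderOf y) :
    (χ : G → ℂ) y = (χ : G → ℂ) 1 / (θ : G → ℂ) 1 * (θ : G → ℂ) y := by
  classical
  letI : Fintype (G ⧸ P) := Fintype.ofFinite _
  have hp := isPrime_of_modular hM
  have hF := push_classFun hPp hG (p := p) (irr_classFun χ.2)
  set c : IrrCharacter (G ⧸ P) → ℂ := fun ψ => classInner (push P p (χ : G → ℂ)) (ψ : G ⧸ P → ℂ)
    with hc
  have h1 : reg p (χ : G → ℂ) = ∑ ψ : IrrCharacter (G ⧸ P), c ψ • reg p (infl P ψ : G → ℂ) := by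
    funext g
    rw [Finset.sum_apply]
    by_cases hg : p ∣ orderOf g
    · rw [reg_not hg]
      symm
      apply Finset.sum_eq_zero
      intro ψ _
      rw [Pi.smul_apply, reg_not hg, smul_zero]
    · rw [reg_of hg, ← push_apply hPp hG (χ : G → ℂ) hg]
      have h2 := classFun_expand_apply hF (g : G ⧸ P)
      rw [h2]
      apply Finset.sum_congr rfl
      intro ψ _
      rw [Pi.smul_apply, reg_of hg, infl_apply, smul_eq_mul]
  -- the coefficient of `θ`
  set C : ℂ := ∑ ψ : IrrCharacter (G ⧸ P), (if infl P ψ = θ then c ψ else 0) with hC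
  have h2 : reg p (χ : G → ℂ) = C • reg p (θ : G → ℂ) := by
    have hcl1 := reg_classFun (p := p) (irr_classFun χ.2)
    have hcl2 := reg_classFun (p := p) (irr_classFun θ.2)
    rw [classFun_expand hcl1, classFun_expand hcl2, Finset.smul_sum]
    apply Finset.sum_congr rfl
    intro η _
    rw [smul_smul]
    congr 1
    by_cases hη : η ∈ B
    · rw [h1, ci_sum_l, hC, Finset.sum_mul]
      apply Finset.sum_congr rfl
      intro ψ _
      rw [ci_smul_l]
      by_cases hψ : infl P ψ = θ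
      · rw [if_pos hψ, hψ]
      · rw [if_neg hψ, zero_mul]
        have h3 : ¬ SameBlock M (infl P ψ : G → ℂ) (η : G → ℂ) := by
          intro h4
          exact hψ (huniq ψ (mem_of_sameBlock hp hB hη (sameBlock_symm h4)))
        rw [inner_reg_zero hM h3, mul_zero]
    · have h3 : ¬ SameBlock M (χ : G → ℂ) (η : G → ℂ) := fun h4 =>
        hη (mem_of_sameBlock hp hB hχ h4)
      have h4 : ¬ SameBlock M (θ : G → ℂ) (η : G → ℂ) := fun h4 =>
        hη (mem_of_sameBlock hp hB hθ h4)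
      rw [inner_reg_zero hM h3, inner_reg_zero hM h4, mul_zero]
  have h3 := congrFun h2 1
  have h4 := congrFun h2 y
  have h1r : ¬ p ∣ orderOf (1 : G) := by
    rw [orderOf_one]; exact (Fact.out : p.Prime).one_lt.ne' ∘ Nat.dvd_one.mp
  rw [Pi.smul_apply, reg_of h1r, reg_of h1r, smul_eq_mul] at h3
  rw [Pi.smul_apply, reg_of hy, reg_of hy, smul_eq_mul] at h4
  have hθ1 : (θ : G → ℂ) 1 ≠ 0 := irr_one_ne_zero θ.2
  rw [h4, h3]
  field_simp

include hG in
/-- the product formula -/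
theorem mul_formula (χ : IrrCharacter G) {u y : G} (hu : u ∈ P)
    (hy : y ∈ Subgroup.centralizer (P : Set G)) :
    (χ : G → ℂ) u * (χ : G → ℂ) y = (χ : G → ℂ) 1 * (χ : G → ℂ) (u * y) := by
  classical
  have h1 := sum_mul_eq_omg χ (isClassFunction_cInd u) y
  have hχ1 : (χ : G → ℂ) 1 ≠ 0 := irr_one_ne_zero χ.2
  have h2 : ∀ x : G, cInd u x * (χ : G → ℂ) (x * y) = cInd u x * (χ : G → ℂ) (u * y) := by
    intro x
    by_cases hx : IsConj u x
    · obtain ⟨g, hg⟩ := isConj_iff.mp hx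
      obtain ⟨v, hv, c, hc, rfl⟩ := exists_pc hG g
      congr 1
      have h3 : x = v * u * v⁻¹ := by
        rw [← hg]
        have h4 : c * u = u * c := by
          rw [Subgroup.mem_centralizer_iff] at hc
          exact (hc u hu).symm
        calc v * c * u * (v * c)⁻¹ = v * (c * u) * c⁻¹ * v⁻¹ := by group
          _ = v * (u * c) * c⁻¹ * v⁻¹ := by rw [h4]
          _ = _ := by group
      have h5 : v * y = y * v := by
        rw [Subgroup.mem_centralizer_iff] at hy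
        exact hy v hv
      have h6 : x * y = v * (u * y) * v⁻¹ := by
        rw [h3]
        calc v * u * v⁻¹ * y = v * u * v⁻¹ * (y * v) * v⁻¹ := by group
          _ = v * u * v⁻¹ * (v * y) * v⁻¹ := by rw [h5]
          _ = _ := by group
      rw [h6, irr_classFun χ.2]
    · rw [cInd_not hx, zero_mul, zero_mul]
  have h3 : omg (χ : G → ℂ) (cInd u) = (∑ x : G, cInd u x) * (χ : G → ℂ) u / (χ : G → ℂ) 1 := by
    unfold omg
    congr 1
    rw [Finset.sum_mul]
    apply Finset.sum_congr rfl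
    intro x _
    by_cases hx : IsConj u x
    · obtain ⟨g, hg⟩ := isConj_iff.mp hx
      rw [← hg, irr_classFun χ.2]
    · rw [cInd_not hx, zero_mul, zero_mul]
  rw [Finset.sum_congr rfl (fun x _ => h2 x), ← Finset.sum_mul, h3] at h1
  have h4 : (∑ x : G, cInd u x : ℂ) ≠ 0 := by
    have h5 := sum_conj_eq u (fun _ => (1 : ℂ))
    simp only [Finset.sum_const, Finset.card_univ, nsmul_eq_mul, mul_one] at h5
    intro h6
    rw [h6, mul_zero] at h5
    have h7 : (Fintype.card G : ℂ) ≠ 0 := by exact_mod_cast Fintype.card_ne_zero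
    exact h7 h5
  have h6 := h1
  field_simp at h6
  rw [← h6, mul_comm]

include hPp hG in
theorem exists_canon (hM : IsPModular p M) {B : Set (IrrCharacter G)} (hB : IsPBlock M B)
    (hD : IsDefectGroup p M B P) : ∃ θ : IrrCharacter G, θ ∈ B ∧
      (∀ x ∈ P, (θ : G → ℂ) x = (θ : G → ℂ) 1) ∧
      (∀ ξ : IrrCharacter (G ⧸ P), infl P ξ ∈ B → infl P ξ = θ) ∧
      (charDegree (θ : G → ℂ)).factorization p = P.index.factorization p := by
  have hp := isPrime_of_modular hM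
  obtain ⟨ξ, hξ⟩ := exists_infl_mem hM hPp hB
  have hdz := infl_defect_zero hM hB hD hξ
  refine ⟨infl P ξ, hξ, infl_ker P ξ, ?_, ?_⟩
  · intro ξ' hξ'
    have h1 : SameBlock M (infl P ξ : G → ℂ) (infl P ξ' : G → ℂ) := sameBlock_of_mem hp hB hξ hξ'
    have h2 := (sameBlock_infl_iff hM hPp (index_cent hPp hG) ξ ξ').mpr h1
    have h3 : ξ' ∈ blockOf M (ξ : G ⧸ P → ℂ) := h2
    rw [defect_zero_block hM hdz] at h3
    rw [h3]
  · have h1 : charDegree (infl P ξ : G → ℂ) = charDegree (ξ : G ⧸ P → ℂ) := rfl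
    rw [h1, hdz]
    rfl

theorem vanish_off (hM : IsPModular p M) {B : Set (IrrCharacter G)} (hB : IsPBlock M B)
    (hD : IsDefectGroup p M B P) {χ : IrrCharacter G} (hχ : χ ∈ B) {g z : G}
    (hz : IsPPart p g z) (hg : (χ : G → ℂ) g ≠ 0) : z ∈ P := by
  have hp := isPrime_of_modular hM
  obtain ⟨E, hE, hzE⟩ := mem_defect_of_ne_zero hM hz hg
  rw [← block_eq_blockOf hp hB hχ] at hE
  obtain ⟨x, hx⟩ := defectGroups_conj hM hB hD hE
  have : P.map (MulAut.conj x).toMonoidHom = P := map_conj_of_mem_normalizer (by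
    rw [Subgroup.normalizer_eq_top_iff.mpr hPn]; trivial)
  rw [hx, this] at hzE
  exact hzE

variable [Fintype P]

include hG in
theorem cjI_eq_self (g : G) (ξ : IrrCharacter P) : cjI P g ξ = ξ := by
  obtain ⟨u, hu, c, hc, rfl⟩ := exists_pc hG g
  apply Subtype.ext
  funext n
  rw [cjI_apply]
  rw [← irr_classFun ξ.2 n ⟨u, hu⟩]
  refine congrArg (ξ : P → ℂ) (Subtype.ext ?_)
  have h1 : c * (n : G) = n * c := by
    rw [Subgroup.mem_centralizer_iff] at hc
    exact (hc n n.2).symm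
  show u * c * (n : G) * (u * c)⁻¹ = u * n * u⁻¹
  calc u * c * (n : G) * (u * c)⁻¹ = u * (c * n) * c⁻¹ * u⁻¹ := by group
    _ = u * (n * c) * c⁻¹ * u⁻¹ := by rw [h1]
    _ = _ := by group

include hG in
theorem restrict_eq (χ : IrrCharacter G) {ξ : IrrCharacter P}
    (h : classInner (fun n : P => (χ : G → ℂ) n) (ξ : P → ℂ) ≠ 0) (u : P) :
    (χ : G → ℂ) u = (χ : G → ℂ) 1 / (ξ : P → ℂ) 1 * (ξ : P → ℂ) u := by
  classical
  have h1 : ∀ u : P, (χ : G → ℂ) u =
      classInner (fun n : P => (χ : G → ℂ) n) (ξ : P → ℂ) * (ξ : P → ℂ) u := by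
    intro u
    have h2 := classFun_expand_apply (res_classFun P (irr_classFun χ.2)) u
    rw [h2, Finset.sum_eq_single ξ]
    · intro ξ' _ hne
      have h3 : classInner (fun n : P => (χ : G → ℂ) n) (ξ' : P → ℂ) = 0 := by
        by_contra h4
        obtain ⟨x, hx⟩ := constituents_conj hPn χ.2 ξ.2 ξ'.2 h h4
        apply hne
        rw [← cjI_eq_self hG x ξ]
        exact Subtype.ext hx.symm
      rw [h3, zero_mul]
    · intro h5; exact absurd (Finset.mem_univ _) h5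
  have h2 := h1 1
  have hξ1 : (ξ : P → ℂ) 1 ≠ 0 := irr_one_ne_zero ξ.2
  have h3 : (χ : G → ℂ) 1 = classInner (fun n : P => (χ : G → ℂ) n) (ξ : P → ℂ) * (ξ : P → ℂ) 1 := h2
  rw [h1 u, h3]
  field_simp

theorem sum_split {F : G → ℂ} (hPp : IsPGroup p P)
    (hcomm : ∀ u ∈ P, ∀ y : G, ¬ p ∣ orderOf y → Commute u y)
    (hF : ∀ g z : G, IsPPart p g z → F g ≠ 0 → z ∈ P)
    [Fintype {y : G // ¬ p ∣ orderOf y}] :
    ∑ g : G, F g = ∑ u : P, ∑ y : {y : G // ¬ p ∣ orderOf y}, F ((u : G) * y) := by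
  classical
  rw [← Finset.sum_product']
  symm
  refine Finset.sum_of_injOn (fun a : P × {y : G // ¬ p ∣ orderOf y} => (a.1 : G) * a.2) ?_
    (fun _ _ => Finset.mem_coe.mpr (Finset.mem_univ _)) ?_ ?_
  · rintro ⟨u, y⟩ _ ⟨u', y'⟩ _ h
    simp only at h
    have h1 : IsPPart p ((u : G) * y) (u : G) :=
      ⟨y, rfl, hcomm _ u.2 _ y.2, exists_pow_of_isPGroup hPp u.2, y.2⟩
    have h2 : IsPPart p ((u : G) * y) (u' : G) := by
      rw [h]
      exact ⟨y', rfl, hcomm _ u'.2 _ y'.2, exists_pow_of_isPGroup hPp u'.2, y'.2⟩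
    have h3 := isPPart_unique h1 h2
    rw [← h3] at h
    have h4 := mul_left_cancel h
    exact Prod.ext (Subtype.ext h3) (Subtype.ext h4)
  · intro g _ hg
    by_contra hne
    obtain ⟨z, hz⟩ := isPPart_exists p g
    have hzP := hF g z hz hne
    obtain ⟨y, hzy, -, -, hy⟩ := hz
    apply hg
    exact ⟨(⟨z, hzP⟩, ⟨y, hy⟩), by simp, hzy⟩
  · intro a _; rfl

include hPp hG in
/-- the sum of the squares over the section -/
theorem norm_formula (hM : IsPModular p M) {B : Set (IrrCharacter G)} (hB : IsPBlock M B)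
    (hD : IsDefectGroup p M B P) {θ : IrrCharacter G} (hθ : θ ∈ B)
    (huniq : ∀ ξ : IrrCharacter (G ⧸ P), infl P ξ ∈ B → infl P ξ = θ)
    {χ : IrrCharacter G} (hχ : χ ∈ B) {ξ : IrrCharacter P}
    (hξ : classInner (fun n : P => (χ : G → ℂ) n) (ξ : P → ℂ) ≠ 0)
    [Fintype {y : G // ¬ p ∣ orderOf y}] :
    (Nat.card G : ℂ) = ((χ : G → ℂ) 1) ^ 2 / (((ξ : P → ℂ) 1) ^ 2 * ((θ : G → ℂ) 1) ^ 2) *
      ((Nat.card P : ℂ) * ∑ y : {y : G // ¬ p ∣ orderOf y},
        (θ : G → ℂ) y * conj ((θ : G → ℂ) y)) := by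
  classical
  have hG0 : (Nat.card G : ℂ) ≠ 0 := by exact_mod_cast Nat.card_pos.ne'
  have hχ1 : (χ : G → ℂ) 1 ≠ 0 := irr_one_ne_zero χ.2
  have hξ1 : (ξ : P → ℂ) 1 ≠ 0 := irr_one_ne_zero ξ.2
  have hθ1 : (θ : G → ℂ) 1 ≠ 0 := irr_one_ne_zero θ.2
  have r1 : conj ((χ : G → ℂ) 1) = (χ : G → ℂ) 1 := by
    rw [irr_one_eq_charDegree χ.2]; exact Complex.conj_natCast _
  have r2 : conj ((ξ : P → ℂ) 1) = (ξ : P → ℂ) 1 := by
    rw [irr_one_eq_charDegree ξ.2]; exact Complex.conj_natCast _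
  have r3 : conj ((θ : G → ℂ) 1) = (θ : G → ℂ) 1 := by
    rw [irr_one_eq_charDegree θ.2]; exact Complex.conj_natCast _
  have h1 : ∑ g : G, (χ : G → ℂ) g * conj ((χ : G → ℂ) g) = (Nat.card G : ℂ) := by
    have h2 := irr_inner_self χ.2
    unfold classInner at h2
    rw [inv_mul_eq_div, div_eq_one_iff_eq hG0] at h2
    exact h2
  have h2 : ∑ u : P, (ξ : P → ℂ) u * conj ((ξ : P → ℂ) u) = (Nat.card P : ℂ) := by
    have hP0 : (Nat.card P : ℂ) ≠ 0 := by exact_mod_cast Nat.card_pos.ne'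
    have h2 := irr_inner_self ξ.2
    unfold classInner at h2
    rw [inv_mul_eq_div, div_eq_one_iff_eq hP0] at h2
    exact h2
  have hcomm : ∀ u ∈ P, ∀ y : G, ¬ p ∣ orderOf y → Commute u y := by
    intro u hu y hy
    have := reg_mem_cent hPp hG hy
    rw [Subgroup.mem_centralizer_iff] at this
    exact this u hu
  rw [← h1, sum_split hPp hcomm (F := fun g => (χ : G → ℂ) g * conj ((χ : G → ℂ) g))
    (fun g z hz hg => vanish_off hM hB hD hχ hz (left_ne_zero_of_mul hg)), ← h2]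
  have h3 : ∀ (u : P) (y : {y : G // ¬ p ∣ orderOf y}),
      (χ : G → ℂ) ((u : G) * y) * conj ((χ : G → ℂ) ((u : G) * y)) =
      ((χ : G → ℂ) 1) ^ 2 / (((ξ : P → ℂ) 1) ^ 2 * ((θ : G → ℂ) 1) ^ 2) *
        (((ξ : P → ℂ) u * conj ((ξ : P → ℂ) u)) * ((θ : G → ℂ) y * conj ((θ : G → ℂ) y))) := by
    intro u y
    have h4 := mul_formula hG χ u.2 (reg_mem_cent hPp hG y.2)
    rw [restrict_eq hG χ hξ u, reg_multiple hPp hG hM hB hθ huniq hχ y.2] at h4
    have h5 : (χ : G → ℂ) ((u : G) * y) = (χ : G → ℂ) 1 / ((ξ : P → ℂ) 1 * (θ : G → ℂ) 1) *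
        ((ξ : P → ℂ) u * (θ : G → ℂ) y) := by
      have h6 := mul_left_cancel₀ hχ1 (a := (χ : G → ℂ) 1)
        (b := (χ : G → ℂ) ((u : G) * y)) (c := (χ : G → ℂ) 1 / ((ξ : P → ℂ) 1 * (θ : G → ℂ) 1) *
        ((ξ : P → ℂ) u * (θ : G → ℂ) y)) (by rw [← h4]; field_simp)
      exact h6
    rw [h5, map_mul, map_mul, map_div₀, map_mul, r1, r2, r3]
    field_simp
  simp only [h3, ← Finset.mul_sum]
  rw [← Finset.sum_mul]

include hPp hG in
theorem main_PC (hM : IsPModular p M) {B : Set (IrrCharacter G)} (hB : IsPBlock M B)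
    (hD : IsDefectGroup p M B P) {θ : IrrCharacter G} (hθ : θ ∈ B)
    (hker : ∀ x ∈ P, (θ : G → ℂ) x = (θ : G → ℂ) 1)
    (huniq : ∀ ξ : IrrCharacter (G ⧸ P), infl P ξ ∈ B → infl P ξ = θ)
    {χ : IrrCharacter G} (hχ : χ ∈ B) {ξ : IrrCharacter P}
    (hξ : classInner (fun n : P => (χ : G → ℂ) n) (ξ : P → ℂ) ≠ 0) :
    (χ : G → ℂ) 1 = (ξ : P → ℂ) 1 * (θ : G → ℂ) 1 ∧
      ∀ (u : P) (y : G), ¬ p ∣ orderOf y →
        (χ : G → ℂ) ((u : G) * y) = (ξ : P → ℂ) u * (θ : G → ℂ) y := by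
  classical
  letI : Fintype {y : G // ¬ p ∣ orderOf y} := Fintype.ofFinite _
  have hG0 : (Nat.card G : ℂ) ≠ 0 := by exact_mod_cast Nat.card_pos.ne'
  have hχ1 : (χ : G → ℂ) 1 ≠ 0 := irr_one_ne_zero χ.2
  have hξ1 : (ξ : P → ℂ) 1 ≠ 0 := irr_one_ne_zero ξ.2
  have hθ1 : (θ : G → ℂ) 1 ≠ 0 := irr_one_ne_zero θ.2
  have h1 := norm_formula hPp hG hM hB hD hθ huniq hχ hξ
  -- for `θ` itself
  obtain ⟨ξ₀, hξ₀, h0⟩ := exists_below P θ.2
  have hθP : ∀ u : P, (ξ₀ : P → ℂ) u = ξ₀ 1 := by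
    intro u
    have h2 := restrict_eq hG θ (ξ := ⟨ξ₀, hξ₀⟩) h0 u
    rw [hker u u.2] at h2
    have h3 : ξ₀ 1 ≠ 0 := irr_one_ne_zero hξ₀
    have h4 : (θ : G → ℂ) 1 = (θ : G → ℂ) 1 / ξ₀ 1 * ξ₀ u := h2
    field_simp at h4
    exact h4.symm
  have h2 := norm_formula hPp hG hM hB hD hθ huniq hθ (ξ := ⟨ξ₀, hξ₀⟩) h0
  have hξ₀1 : ξ₀ 1 = 1 := by
    have h3 := irr_inner_self hξ₀
    unfold classInner at h3
    simp only [hθP] at h3
    have hP0 : (Fintype.card P : ℂ) ≠ 0 := by exact_mod_cast Fintype.card_ne_zero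
    rw [Finset.sum_const, Finset.card_univ, nsmul_eq_mul, Nat.card_eq_fintype_card, ← mul_assoc,
      inv_mul_cancel₀ hP0, one_mul, irr_one_eq_charDegree hξ₀, Complex.conj_natCast] at h3
    have h4 : charDegree ξ₀ * charDegree ξ₀ = 1 := by exact_mod_cast h3
    rw [irr_one_eq_charDegree hξ₀, Nat.eq_one_of_mul_eq_one_left h4, Nat.cast_one]
  have h2' : (Nat.card G : ℂ) = (Nat.card P : ℂ) * ∑ y : {y : G // ¬ p ∣ orderOf y},
        (θ : G → ℂ) y * conj ((θ : G → ℂ) y) := by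
    have h3 : ((⟨ξ₀, hξ₀⟩ : IrrCharacter P) : P → ℂ) 1 = 1 := hξ₀1
    rw [h3, one_pow, one_mul, div_self (pow_ne_zero 2 hθ1), one_mul] at h2
    exact h2
  rw [← h2'] at h1
  have h3 : ((χ : G → ℂ) 1) ^ 2 = ((ξ : P → ℂ) 1 * (θ : G → ℂ) 1) ^ 2 := by
    have h4 : ((χ : G → ℂ) 1) ^ 2 / (((ξ : P → ℂ) 1) ^ 2 * ((θ : G → ℂ) 1) ^ 2) = 1 := by
      have h5 : (((χ : G → ℂ) 1) ^ 2 / (((ξ : P → ℂ) 1) ^ 2 * ((θ : G → ℂ) 1) ^ 2) - 1) *
          (Nat.card G : ℂ) = 0 := by rw [sub_mul, one_mul, ← h1, sub_self]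
      rcases mul_eq_zero.mp h5 with h6 | h6
      · exact sub_eq_zero.mp h6
      · exact absurd h6 hG0
    rw [div_eq_one_iff_eq (mul_ne_zero (pow_ne_zero 2 hξ1) (pow_ne_zero 2 hθ1))] at h4
    rw [h4]; ring
  have h4 : (χ : G → ℂ) 1 = (ξ : P → ℂ) 1 * (θ : G → ℂ) 1 := by
    rw [irr_one_eq_charDegree χ.2, irr_one_eq_charDegree ξ.2, irr_one_eq_charDegree θ.2] at h3 ⊢
    have h5 : (charDegree (χ : G → ℂ)) ^ 2 =
      (charDegree (ξ : P → ℂ) * charDegree (θ : G → ℂ)) ^ 2 := by exact_mod_cast h3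
    have h6 := Nat.pow_left_injective (n := 2) (by norm_num) h5
    exact_mod_cast h6
  refine ⟨h4, fun u y hy => ?_⟩
  have h5 := mul_formula hG χ u.2 (reg_mem_cent hPp hG hy)
  rw [restrict_eq hG χ hξ u, reg_multiple hPp hG hM hB hθ huniq hχ hy] at h5
  apply mul_left_cancel₀ hχ1
  rw [← h5]
  rw [h4]
  field_simp

include hPp hG in
theorem exists_over_PC (hM : IsPModular p M) {B : Set (IrrCharacter G)} (hB : IsPBlock M B)
    (ξ : IrrCharacter P) :
    ∃ χ ∈ B, classInner (fun n : P => (χ : G → ℂ) n) (ξ : P → ℂ) ≠ 0 := by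
  classical
  have hp := isPrime_of_modular hM
  by_contra hcon
  push Not at hcon
  obtain ⟨χ₀, hχ₀⟩ := block_nonempty hp hB
  have hξ1 : (ξ : P → ℂ) 1 ≠ 0 := irr_one_ne_zero ξ.2
  have hP0 : (Fintype.card P : ℂ) ≠ 0 := by exact_mod_cast Fintype.card_ne_zero
  -- the character sum
  have h1r : ¬ p ∣ orderOf (1 : G) := by
    rw [orderOf_one]; exact (Fact.out : p.Prime).one_lt.ne' ∘ Nat.dvd_one.mp
  have h1 : ∀ u : P, u ≠ 1 →
      ∑ χ : IrrCharacter G, ind B χ * ((χ : G → ℂ) 1 * conj ((χ : G → ℂ) u)) = 0 := by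
    intro u hu
    obtain ⟨k, hk⟩ := exists_pow_of_isPGroup hPp u.2
    have hk0 : k ≠ 0 := by
      rintro rfl
      rw [pow_zero, orderOf_eq_one_iff] at hk
      exact hu (Subtype.ext hk)
    have h2 := weak_block_orth hM hB (x := 1) (y := (u : G)) h1r
      (by rw [hk]; exact dvd_pow_self p hk0)
    rw [← sum_ind] at h2
    exact h2
  have h2 : ∑ u : P, (∑ χ : IrrCharacter G, ind B χ * ((χ : G → ℂ) 1 * conj ((χ : G → ℂ) u))) *
      (ξ : P → ℂ) u = (∑ χ : IrrCharacter G, ind B χ * ((χ : G → ℂ) 1 * conj ((χ : G → ℂ) 1))) *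
      (ξ : P → ℂ) 1 := by
    rw [Finset.sum_eq_single (1 : P)]
    · rfl
    · intro u _ hu
      rw [h1 u hu, zero_mul]
    · intro h; exact absurd (Finset.mem_univ _) h
  have h3 : ∑ u : P, (∑ χ : IrrCharacter G, ind B χ * ((χ : G → ℂ) 1 * conj ((χ : G → ℂ) u))) *
      (ξ : P → ℂ) u = 0 := by
    simp only [Finset.sum_mul]
    rw [Finset.sum_comm]
    apply Finset.sum_eq_zero
    intro χ _
    by_cases hχ : χ ∈ B
    · have h4 : classInner (ξ : P → ℂ) (fun n : P => (χ : G → ℂ) n) = 0 := by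
        by_contra h5
        apply h5
        exact ci_zero_comm (hcon χ hχ)
      unfold classInner at h4
      have h5 : ∑ u : P, (ξ : P → ℂ) u * conj ((χ : G → ℂ) u) = 0 := by
        rcases mul_eq_zero.mp h4 with h6 | h6
        · rw [Nat.card_eq_fintype_card] at h6
          exact absurd (inv_eq_zero.mp h6) hP0
        · exact h6
      have h6 : ∀ u : P, ind B χ * ((χ : G → ℂ) 1 * conj ((χ : G → ℂ) u)) * (ξ : P → ℂ) u =
          (ind B χ * (χ : G → ℂ) 1) * ((ξ : P → ℂ) u * conj ((χ : G → ℂ) u)) := fun u => by ring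
      rw [Finset.sum_congr rfl (fun u _ => h6 u), ← Finset.mul_sum, h5, mul_zero]
    · apply Finset.sum_eq_zero
      intro u _
      rw [ind_not hχ]; ring
  rw [h3] at h2
  have h4 : (∑ χ : IrrCharacter G, ind B χ * ((χ : G → ℂ) 1 * conj ((χ : G → ℂ) 1))) = 0 := by
    rcases mul_eq_zero.mp h2.symm with h5 | h5
    · exact h5
    · exact absurd h5 hξ1
  have h5 : (∑ χ : IrrCharacter G, ind B χ * ((χ : G → ℂ) 1 * conj ((χ : G → ℂ) 1))) =
      ((∑ χ ∈ Finset.univ.filter (fun χ : IrrCharacter G => χ ∈ B),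
        charDegree (χ : G → ℂ) * charDegree (χ : G → ℂ) : ℕ) : ℂ) := by
    rw [Finset.sum_filter]
    push_cast
    apply Finset.sum_congr rfl
    intro χ _
    by_cases hχ : χ ∈ B
    · rw [ind_of hχ, if_pos hχ, one_mul, irr_one_eq_charDegree χ.2, Complex.conj_natCast]
    · rw [ind_not hχ, if_neg hχ, zero_mul]
  rw [h5] at h4
  have h6 : ∑ χ ∈ Finset.univ.filter (fun χ : IrrCharacter G => χ ∈ B),
        charDegree (χ : G → ℂ) * charDegree (χ : G → ℂ) = 0 := by exact_mod_cast h4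
  have h7 := (Finset.sum_eq_zero_iff.mp h6) χ₀ (by simpa using hχ₀)
  have h8 : 0 < charDegree (χ₀ : G → ℂ) := irr_charDegree_pos χ₀.2
  have h9 := Nat.mul_pos h8 h8
  omega

end PC

theorem s0968 (hM : IsPModular p M) {P : Subgroup G} (hPp : IsPGroup p P)
    (hG : P ⊔ Subgroup.centralizer (P : Set G) = ⊤) {B : Set (IrrCharacter G)}
    (hB : IsPBlock M B) (hD : IsDefectGroup p M B P) :
    (∃! θ : IrrCharacter G, θ ∈ B ∧ ∀ x ∈ P, (θ : G → ℂ) x = (θ : G → ℂ) 1) ∧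
    (∀ θ ∈ B, (∀ x ∈ P, (θ : G → ℂ) x = (θ : G → ℂ) 1) →
      (charDegree (θ : G → ℂ)).factorization p = P.index.factorization p) ∧
    Nat.card B = Nat.card (ConjClasses P) := by
  classical
  haveI hPn := normal_of_PC hG
  letI : Fintype P := Fintype.ofFinite P
  obtain ⟨θ, hθ, hker, huniq, hdeg⟩ := exists_canon hPp hG hM hB hD
  have hall : ∀ θ' ∈ B, (∀ x ∈ P, (θ' : G → ℂ) x = (θ' : G → ℂ) 1) → θ' = θ := by
    intro θ' hθ' hk
    obtain ⟨ξ, hξ⟩ := exists_defl P θ' hk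
    rw [← hξ]
    exact huniq ξ (by rw [hξ]; exact hθ')
  refine ⟨⟨θ, ⟨hθ, hker⟩, fun θ' h => hall θ' h.1 h.2⟩, ?_, ?_⟩
  · intro θ' hθ' hk
    rw [hall θ' hθ' hk]; exact hdeg
  · rw [← card_irr]
    have hex : ∀ χ : IrrCharacter G, ∃ ξ : IrrCharacter P,
        classInner (fun n : P => (χ : G → ℂ) n) (ξ : P → ℂ) ≠ 0 := by
      intro χ
      obtain ⟨ξ, hξ, h⟩ := exists_below P χ.2
      exact ⟨⟨ξ, hξ⟩, h⟩
    choose f hf using hex
    apply Nat.card_congr
    refine Equiv.ofBijective (fun χ : B => f χ) ⟨?_, ?_⟩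
    · intro χ χ' h
      simp only at h
      have h1 := (main_PC hPp hG hM hB hD hθ hker huniq χ.2 (hf χ)).2
      have h2 := (main_PC hPp hG hM hB hD hθ hker huniq χ'.2 (hf χ')).2
      apply Subtype.ext
      apply Subtype.ext
      funext g
      obtain ⟨z, hz⟩ := isPPart_exists p g
      by_cases hzP : z ∈ P
      · obtain ⟨y, hzy, -, -, hy⟩ := hz
        have h3 := h1 ⟨z, hzP⟩ y hy
        have h4 := h2 ⟨z, hzP⟩ y hy
        rw [← hzy]
        rw [h] at h3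
        exact h3.trans h4.symm
      · have h3 : ((χ : IrrCharacter G) : G → ℂ) g = 0 := by
          by_contra hne; exact hzP (vanish_off hM hB hD χ.2 hz hne)
        have h4 : ((χ' : IrrCharacter G) : G → ℂ) g = 0 := by
          by_contra hne; exact hzP (vanish_off hM hB hD χ'.2 hz hne)
        rw [h3, h4]
    · intro ξ
      obtain ⟨χ, hχ, h⟩ := exists_over_PC hPp hG hM hB ξ
      refine ⟨⟨χ, hχ⟩, ?_⟩
      simp only
      obtain ⟨x, hx⟩ := constituents_conj hPn χ.2 (f χ).2 ξ.2 (hf χ) h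
      rw [← cjI_eq_self hG x (f χ)]
      exact Subtype.ext hx

end CfsgLib.BlockPC
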