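import Mathlib
import Cfsg.Agent.EqBase
import Cfsg.Agent.LibCar3
import Cfsg.Agent.LibBlockPC
import Cfsg.Agent.LibBrP21

/-!
# Central defect groups (helper18)
-/

set_option autoImplicit false
set_option linter.unusedSectionVars false
set_option linter.style.haveILetI false
set_option linter.unusedSimpArgs false
set_option linter.unusedVariables false

namespace CfsgLib.Car

open CfsgLib.CharInt hiding irr_isCharacter irr_classFun irr_one_ne_zero schur_scalar
open Cfsg CfsgLib.CharInt2 CfsgLib.CharBasic CfsgLib.BlockR CfsgLib.BlockCore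
  CfsgLib.BlockIdem CfsgLib.BlockIdeal CfsgLib.BlockConj CfsgLib.BlockBrauer CfsgLib.BlockInd
  CfsgLib.BlockFMT CfsgLib.BlockFMT2 CfsgLib.PLocalInd CfsgLib.BlockOrth CfsgLib.BlockDefect
  CfsgLib.BlockReg CfsgLib.BlockReg2 CfsgLib.BlockCount CfsgLib.BlockCount2 CfsgLib.BlockQP
  CfsgLib.BlockCov3 CfsgLib.BlockCov4 CfsgLib.BlockLoc CfsgLib.BlockM CfsgLib.BlockSec3
  CfsgLib.BlockSec CfsgLib.CharNorm CfsgLib.BlockPC
open scoped ComplexConjugate

universe u

variable {M : Ideal AlgInt} {p : ℕ} [Fact p.Prime] {G : Type u} [Group G] [Fintype G]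

theorem sup_cent_of_central {Z : Subgroup G} (hZ : Z ≤ Subgroup.center G) :
    Z ⊔ Subgroup.centralizer (Z : Set G) = ⊤ := by
  have : Subgroup.centralizer (Z : Set G) = ⊤ := by
    rw [eq_top_iff]
    intro x _
    rw [Subgroup.mem_centralizer_iff]
    intro z hz
    exact ((Subgroup.mem_center_iff.1 (hZ hz)) x).symm
  rw [this, sup_top_eq]

/-- one Brauer character for `G = P C_G(P)` -/
theorem rank_one_PC (hM : IsPModular p M) {P : Subgroup G} (hPp : IsPGroup p P)
    (hG : P ⊔ Subgroup.centralizer (P : Set G) = ⊤) {B : Set (IrrCharacter G)}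
    (hB : IsPBlock M B) (hD : IsDefectGroup p M B P) : blockRank p B = 1 := by
  haveI hPn := normal_of_PC hG
  obtain ⟨θ, hθ, hker, huniq, hdeg⟩ := exists_canon hPp hG hM hB hD
  refine CfsgLib.BlkRk.rank_one_of hθ fun χ hχ =>
    ⟨(χ : G → ℂ) 1 / (θ : G → ℂ) 1, fun g hg => ?_⟩
  exact reg_multiple hPp hG hM hB hθ huniq hχ hg

theorem defect_isPGroup {B : Set (IrrCharacter G)} {D : Subgroup G} (hD : IsDefectGroup p M B D) :
    IsPGroup p D := by
  obtain ⟨g, hg, hS⟩ := isDefectGroup_iff.mp hD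
  exact hS.isPGroup

/-- a character of central defect zero determines the defect group -/
theorem def_of_central (hM : IsPModular p M) {Z : Subgroup G} (hZ : Z ≤ Subgroup.center G)
    (hZp : IsPGroup p Z) {B : Set (IrrCharacter G)} (hB : IsPBlock M B) {θ : IrrCharacter G}
    (hθ : θ ∈ B) (hker : ∀ z ∈ Z, (θ : G → ℂ) z = (θ : G → ℂ) 1)
    (hdeg : (charDegree (θ : G → ℂ)).factorization p + (Nat.card Z).factorization p =
      (Nat.card G).factorization p) : IsDefectGroup p M B Z := by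
  classical
  have hpp : p.Prime := Fact.out
  haveI hPn : Z.Normal := normal_of_PC (sup_cent_of_central hZ)
  letI : Fintype Z := Fintype.ofFinite Z
  letI : Fintype (G ⧸ Z) := Fintype.ofFinite _
  letI : Fintype {y : G // ¬ p ∣ orderOf y} := Fintype.ofFinite _
  obtain ⟨ξ, hξ⟩ := exists_defl Z θ hker
  have hcardG : Nat.card G = Nat.card (G ⧸ Z) * Nat.card Z := Subgroup.card_eq_card_quotient_mul_card_subgroup Z
  have hdz : (charDegree (ξ : G ⧸ Z → ℂ)).factorization p = (Nat.card (G ⧸ Z)).factorization p := by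
    have h1 : charDegree (ξ : G ⧸ Z → ℂ) = charDegree (θ : G → ℂ) := by rw [← hξ]; rfl
    rw [h1]
    rw [hcardG, Nat.factorization_mul Nat.card_pos.ne' Nat.card_pos.ne', Finsupp.add_apply] at hdeg
    omega
  -- vanishing
  have hvan : ∀ g z : G, IsPPart p g z → (θ : G → ℂ) g ≠ 0 → z ∈ Z := by
    intro g z hgz hg
    by_contra hzZ
    apply hg
    rw [← hξ, infl_apply]
    refine vanish_of_defect_zero hM hdz ?_
    obtain ⟨k, hk⟩ := ppart_eq_zpow hgz
    have h2 : (z : G ⧸ Z) ≠ 1 := fun h => hzZ ((QuotientGroup.eq_one_iff z).1 h)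
    obtain ⟨j, hj⟩ := hgz.choose_spec.2.2.1
    have h3 : orderOf (z : G ⧸ Z) ∣ p ^ j := by
      rw [← hj]
      exact orderOf_map_dvd (QuotientGroup.mk' Z) z
    obtain ⟨i, -, hi⟩ := (Nat.dvd_prime_pow hpp).1 h3
    have hi0 : i ≠ 0 := by
      rintro rfl
      rw [pow_zero, orderOf_eq_one_iff] at hi
      exact h2 hi
    have h4 : p ∣ orderOf (z : G ⧸ Z) := by rw [hi]; exact dvd_pow_self p hi0
    refine h4.trans ?_
    have h5 : (z : G ⧸ Z) = (g : G ⧸ Z) ^ k := by rw [hk]; rfl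
    rw [h5]
    exact orderOf_dvd_of_mem_zpowers ⟨k, rfl⟩
  have hcen : ∀ z ∈ Z, ∀ y : G, Commute z y := fun z hz y =>
    ((Subgroup.mem_center_iff.1 (hZ hz)) y).symm
  have hmul : ∀ z ∈ Z, ∀ y : G, (θ : G → ℂ) (z * y) = (θ : G → ℂ) y := by
    intro z hz y
    rw [← hξ, infl_apply, infl_apply]
    rw [QuotientGroup.mk_mul, (QuotientGroup.eq_one_iff z).2 hz, one_mul]
  -- the norm
  have hG0 : (Nat.card G : ℂ) ≠ 0 := by exact_mod_cast Nat.card_pos.ne'
  have hZ0 : (Nat.card Z : ℂ) ≠ 0 := by exact_mod_cast Nat.card_pos.ne'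
  have hn1 : ∑ g : G, (θ : G → ℂ) g * conj ((θ : G → ℂ) g) = Nat.card G := by
    have h1 : classInner (θ : G → ℂ) (θ : G → ℂ) = 1 := (irr_iff_norm_one.mp θ.2).2
    unfold classInner at h1
    field_simp at h1
    exact h1
  have hn2 : ∑ g : G, (θ : G → ℂ) g * conj ((θ : G → ℂ) g) =
      (Nat.card Z : ℂ) * ∑ y : {y : G // ¬ p ∣ orderOf y}, (θ : G → ℂ) y * conj ((θ : G → ℂ) y) := by
    rw [sum_split hZp (fun u hu y _ => hcen u hu y) (fun g z hgz hne => hvan g z hgz
      (left_ne_zero_of_mul hne))]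
    have h1 : ∀ u : Z, ∑ y : {y : G // ¬ p ∣ orderOf y},
        (θ : G → ℂ) ((u : G) * y) * conj ((θ : G → ℂ) ((u : G) * y)) =
        ∑ y : {y : G // ¬ p ∣ orderOf y}, (θ : G → ℂ) y * conj ((θ : G → ℂ) y) := by
      intro u
      refine Finset.sum_congr rfl fun y _ => ?_
      rw [hmul u u.2]
    simp only [h1, Finset.sum_const, Finset.card_univ, nsmul_eq_mul]
    rw [Nat.card_eq_fintype_card]
  have hn3 : classInner (reg p (θ : G → ℂ)) (θ : G → ℂ) = (Nat.card Z : ℂ)⁻¹ := by
    unfold classInner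
    have h1 : ∑ g : G, reg p (θ : G → ℂ) g * conj ((θ : G → ℂ) g) =
        ∑ y : {y : G // ¬ p ∣ orderOf y}, (θ : G → ℂ) y * conj ((θ : G → ℂ) y) := by
      rw [← Finset.sum_subtype (Finset.univ.filter fun y : G => ¬ p ∣ orderOf y)
        (fun x => by simp) (fun y => (θ : G → ℂ) y * conj ((θ : G → ℂ) y)), Finset.sum_filter]
      refine Finset.sum_congr rfl fun g _ => ?_
      split_ifs with h
      · rw [reg_not h, zero_mul]
      · rw [reg_of h]
    rw [h1]
    rw [hn1] at hn2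
    have h2 : ∑ y : {y : G // ¬ p ∣ orderOf y}, (θ : G → ℂ) y * conj ((θ : G → ℂ) y) =
        (Nat.card G : ℂ) / Nat.card Z := by
      rw [hn2, mul_comm, mul_div_assoc, div_self hZ0, mul_one]
    rw [h2]
    field_simp
  have hZcard : Nat.card Z = p ^ (Nat.card Z).factorization p := by
    obtain ⟨n, hn⟩ := hZp.exists_card_eq
    rw [hn, hpp.factorization_pow]; simp
  have hcc : (cc p θ θ : ℂ) = ((p ^ (charDegree (θ : G → ℂ)).factorization p : ℕ) : ℂ) := by
    rw [← cc_spec (p := p) θ θ, hn3, ← hdeg, pow_add, ← hZcard]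
    push_cast
    field_simp
  have hp := isPrime_of_modular hM
  have hcd : charDegree (θ : G → ℂ) ≠ 0 := (irr_charDegree_pos θ.2).ne'
  have hunit : ¬ MemLocalIdeal M ((cc p θ θ : ℂ) / (charDegree (θ : G → ℂ) : ℂ)) := by
    rw [hcc, ideal_div_nat_iff hM (pow_ne_zero _ hpp.ne_zero) hcd, hpp.factorization_pow]
    simp
  have hh := (cc_unit_iff hM hB hθ hθ).1 hunit
  have hde := degree_eq hM hB hθ
  rw [hh] at hde
  obtain ⟨D, hD⟩ := exists_defectGroup hM hB
  have hZD : Z ≤ D := normal_le_defect hM hB hD hZp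
  have hDc := card_defectGroup hM hB hD
  have hcard : Nat.card D ≤ Nat.card Z := by
    rw [hDc, hZcard]
    apply Nat.pow_le_pow_right hpp.pos
    omega
  have : Z = D := Subgroup.eq_of_le_of_card_ge hZD hcard
  rw [this]; exact hD

/-- the canonical character of a block with central defect group -/
theorem canon_of_central (hM : IsPModular p M) {Z : Subgroup G} (hZ : Z ≤ Subgroup.center G)
    {B : Set (IrrCharacter G)} (hB : IsPBlock M B) (hD : IsDefectGroup p M B Z) :
    ∃ θ ∈ B, (∀ z ∈ Z, (θ : G → ℂ) z = (θ : G → ℂ) 1) ∧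
      (charDegree (θ : G → ℂ)).factorization p + (Nat.card Z).factorization p =
      (Nat.card G).factorization p := by
  have hZp := defect_isPGroup hD
  haveI hPn : Z.Normal := normal_of_PC (sup_cent_of_central hZ)
  obtain ⟨θ, hθ, hker, huniq, hdeg⟩ := exists_canon hZp (sup_cent_of_central hZ) hM hB hD
  refine ⟨θ, hθ, hker, ?_⟩
  rw [hdeg]
  have hcardG : Nat.card G = Z.index * Nat.card Z := by rw [mul_comm, Subgroup.card_mul_index]
  rw [hcardG, Nat.factorization_mul Z.index_ne_zero_of_finite Nat.card_pos.ne', Finsupp.add_apply]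

end CfsgLib.Car
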