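import Mathlib
import Cfsg.Agent.EqBase
import Cfsg.Agent.LibBrP21
import Cfsg.Agent.LibCar4

/-!
# Brauer pairs, XXII: centric pairs (helper18)
-/

set_option autoImplicit false
set_option linter.unusedSectionVars false
set_option linter.style.haveILetI false
set_option linter.unusedSimpArgs false
set_option linter.unusedVariables false

namespace CfsgLib.BrP

open Cfsg CfsgLib.LocR CfsgLib.BlockCore CfsgLib.BlockIdem CfsgLib.BlockR

section Alg

variable {G : Type*} [Group G] [Fintype G] {p : ℕ} [hp : Fact p.Prime] {k : Type*} [Field k]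
  [CharP k p]

/-- the first proper step of a chain -/
theorem first_step {H : Subgroup G} {a b : Subgroup G × MonoidAlgebra k G} (h : LEp p H a b)
    (hne : b.1 ≠ a.1) : ∃ c : Subgroup G × MonoidAlgebra k G, Nrm p H a.1 a.2 c.1 c.2 ∧
      c.1 ≠ a.1 ∧ LEp p H c b := by
  induction h using Relation.ReflTransGen.head_induction_on with
  | refl => exact absurd rfl hne
  | @head a c h1 h2 ih =>
    by_cases hc : c.1 = a.1
    · have h3 : a.2 = c.2 := by
        have h4 : Nrm p H a.1 a.2 a.1 c.2 := by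
          have := h1
          rwa [hc] at this
        exact nrm_self h4
      have h5 : c = a := Prod.ext hc h3.symm
      subst h5
      exact ih hne
    · exact ⟨c, h1, hc, h2⟩

variable [IsAlgClosed k]

/-- `Z(P)` is a defect group of the maximal pair -/
theorem mx_zdef {H P : Subgroup G} {B e : MonoidAlgebra k G} (hB : IsBlk H B)
    (hmx : IsMx p H B P e) : IsDef p (CH H P) e (P ⊓ Subgroup.centralizer (P : Set G)) := by
  obtain ⟨D, hD⟩ := exists_isDef (p := p) hmx.1.1.blk
  obtain ⟨x, hx, h1, h2, h3⟩ := exists_cent hB hmx hmx.1 hD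
  have h4 : cS x P = P := Subgroup.eq_of_le_of_card_ge h1.le (by
    rw [card_cS])
  rw [h4] at h1 h3
  have h5 : cj x e = e := LEp.unique hmx.1.1 h1 Relation.ReflTransGen.refl
  rwa [h5] at h3

/-- a centric pair with enough control on `p`-elements is maximal -/
theorem mx_of_zdef {H P : Subgroup G} {B e : MonoidAlgebra k G} (hB : IsBlk H B)
    (hof : Of p H B P e) (hZ : IsDef p (CH H P) e (P ⊓ Subgroup.centralizer (P : Set G)))
    (hel : ∀ x ∈ TS H P e, (∃ j : ℕ, orderOf x = p ^ j) → x ∈ P ⊔ CH H P) :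
    IsMx p H B P e := by
  refine ⟨hof, fun R g hR hle => ?_⟩
  by_contra hne
  obtain ⟨c, hc1, hc2, hc3⟩ := first_step hle hne
  apply hc2
  have hcP : P ≤ c.1 := hc1.le
  refine le_antisymm ?_ hcP
  intro x hx
  have hxT : x ∈ TS H P e := nrm_le_TS hc1 hx
  have hxo : ∃ j : ℕ, orderOf x = p ^ j := by
    obtain ⟨j, hj⟩ := IsPGroup.iff_orderOf.mp hc1.bpP.pg ⟨x, hx⟩
    exact ⟨j, by rw [← hj, ← Subgroup.orderOf_coe]⟩
  have h1 := hel x hxT hxo
  have hn : CH H P ≤ Subgroup.normalizer (P : Set G) :=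
    inf_le_right.trans (centralizer_le_normalizer P)
  rw [sup_comm] at h1
  obtain ⟨v, hv, u, hu, huv⟩ := mem_sup_of_normalizer hn h1
  obtain ⟨y, hy, h4⟩ := cent_le_defect hc1.bpP (Relation.ReflTransGen.single hc1) hZ
  have h5 : cS y (P ⊓ Subgroup.centralizer (P : Set G)) ≤ P := by
    rw [cS_inf, cS_of_normalizer (hn hy)]; exact inf_le_left
  have h6 : v ∈ P := by
    apply h5
    apply h4
    refine ⟨?_, hv.2⟩
    have h7 : v = x * u⁻¹ := by rw [huv]; group
    rw [h7]
    exact c.1.mul_mem hx (c.1.inv_mem (hcP hu))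
  rw [huv]
  exact P.mul_mem h6 hu

end Alg

end CfsgLib.BrP
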