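import Mathlib

/-! Composition length of a finite group via subnormal chains (seat helper29). -/

set_option autoImplicit false

namespace CfsgLib.CL29

/-- `SN k H`: there is a strict subnormal chain of length `k` from `⊥` to `H` -/
inductive SN {G : Type*} [Group G] : ℕ → Subgroup G → Prop
  | bot : SN 0 ⊥
  | step {k : ℕ} {H K : Subgroup G} : SN k H → H < K → (∀ x ∈ K, ∀ h ∈ H, x * h * x⁻¹ ∈ H) → SN (k + 1) K

section basic
variable {G Q : Type*} [Group G] [Group Q]

theorem SN.le_card [Finite G] {k : ℕ} {H : Subgroup G} (h : SN k H) : k ≤ ArithmeticFunction.cardFactors (Nat.card H) := by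
  induction h with
  | bot => simp
  | @step k H K _ hlt _ ih =>
    have h1 : Nat.card H ∣ Nat.card K := Subgroup.card_dvd_of_le hlt.le
    obtain ⟨c, hc⟩ := h1
    have h2 : Nat.card H ≠ 0 := Nat.card_pos.ne'
    have h3 : Nat.card K ≠ 0 := Nat.card_pos.ne'
    have hc0 : c ≠ 0 := by rintro rfl; exact h3 (by rw [hc, mul_zero])
    have hc1 : c ≠ 1 := by
      rintro rfl
      rw [mul_one] at hc
      exact hlt.ne (Subgroup.eq_of_le_of_card_ge hlt.le hc.le)
    rw [hc, ArithmeticFunction.cardFactors_mul h2 hc0]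
    have h4 : 0 < ArithmeticFunction.cardFactors c := by
      rw [ArithmeticFunction.cardFactors_pos_iff_one_lt]
      omega
    omega

theorem two_pow_cardFactors {n : ℕ} (hn : n ≠ 0) : 2 ^ ArithmeticFunction.cardFactors n ≤ n := by
  rw [ArithmeticFunction.cardFactors_apply]
  conv_rhs => rw [← Nat.prod_primeFactorsList hn]
  apply List.pow_card_le_prod
  intro x hx
  exact (Nat.prime_of_mem_primeFactorsList hx).two_le

theorem SN.two_pow_le [Finite G] {k : ℕ} {H : Subgroup G} (h : SN k H) : 2 ^ k ≤ Nat.card H :=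
  (Nat.pow_le_pow_right (by norm_num) h.le_card).trans (two_pow_cardFactors Nat.card_pos.ne')

/-- composition length -/
noncomputable def cl (G : Type*) [Group G] : ℕ := sSup {k | SN k (⊤ : Subgroup G)}

theorem bdd [Finite G] : BddAbove {k | SN k (⊤ : Subgroup G)} :=
  ⟨ArithmeticFunction.cardFactors (Nat.card (⊤ : Subgroup G)), fun _ hk => SN.le_card hk⟩

theorem le_cl [Finite G] {k : ℕ} (h : SN k (⊤ : Subgroup G)) : k ≤ cl G := le_csSup bdd h

theorem cl_spec [Finite G] : SN (cl G) (⊤ : Subgroup G) := by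
  apply Nat.sSup_mem _ bdd
  by_cases h : (⊥ : Subgroup G) = ⊤
  · exact ⟨0, by show SN 0 (⊤ : Subgroup G); rw [← h]; exact SN.bot⟩
  · exact ⟨1, SN.step SN.bot (lt_of_le_of_ne bot_le h) (by intro x _ k hk; rw [Subgroup.mem_bot] at hk ⊢; rw [hk]; group)⟩

theorem cl_le_card [Finite G] : cl G ≤ ArithmeticFunction.cardFactors (Nat.card G) := by
  have := (cl_spec (G := G)).le_card
  rwa [Subgroup.card_top] at this

theorem two_pow_cl [Finite G] : 2 ^ cl G ≤ Nat.card G := by
  have := (cl_spec (G := G)).two_pow_le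
  rwa [Subgroup.card_top] at this

theorem SN.map_inj {k : ℕ} {H : Subgroup G} (h : SN k H) (f : G →* Q) (hf : Function.Injective f) : SN k (H.map f) := by
  induction h with
  | bot => rw [Subgroup.map_bot]; exact SN.bot
  | @step k H K _ hlt hn ih =>
    refine SN.step ih ?_ ?_
    · exact lt_of_le_of_ne (Subgroup.map_mono hlt.le) (fun h => hlt.ne (Subgroup.map_injective hf h))
    · rintro _ ⟨x, hx, rfl⟩ _ ⟨y, hy, rfl⟩
      exact ⟨x * y * x⁻¹, hn x hx y hy, by simp⟩

theorem cl_congr [Finite G] [Finite Q] (e : G ≃* Q) : cl G = cl Q := by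
  apply le_antisymm
  · apply le_cl
    have := (cl_spec (G := G)).map_inj e.toMonoidHom e.injective
    have h2 : (⊤ : Subgroup G).map e.toMonoidHom = ⊤ := by
      rw [← MonoidHom.range_eq_map]; exact MonoidHom.range_eq_top.mpr e.surjective
    rwa [h2] at this
  · apply le_cl
    have := (cl_spec (G := Q)).map_inj e.symm.toMonoidHom e.symm.injective
    have h2 : (⊤ : Subgroup Q).map e.symm.toMonoidHom = ⊤ := by
      rw [← MonoidHom.range_eq_map]; exact MonoidHom.range_eq_top.mpr e.symm.surjective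
    rwa [h2] at this

/-- chains inside a subgroup -/
theorem SN.subgroupOf {k : ℕ} {H : Subgroup G} (h : SN k H) : ∀ M : Subgroup G, H ≤ M → SN k (H.subgroupOf M) := by
  induction h with
  | bot => intro M _; rw [Subgroup.bot_subgroupOf]; exact SN.bot
  | @step k H K _ hlt hn ih =>
    intro M hM
    refine SN.step (ih M (hlt.le.trans hM)) ?_ ?_
    · refine lt_of_le_of_ne (fun x hx => hlt.le hx) (fun h => hlt.ne ?_)
      refine le_antisymm hlt.le (fun x hx => ?_)
      have : (⟨x, hM hx⟩ : M) ∈ K.subgroupOf M := hx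
      rw [← h] at this
      exact this
    · intro x hx y hy
      exact hn x hx y hy

theorem SN.le_cl_coe [Finite G] {k : ℕ} {M : Subgroup G} (h : SN k M) : k ≤ cl M := by
  apply le_cl
  have := h.subgroupOf M le_rfl
  rwa [Subgroup.subgroupOf_self] at this

theorem SN_cl_coe [Finite G] (M : Subgroup G) : SN (cl M) M := by
  have := (cl_spec (G := M)).map_inj M.subtype M.subtype_injective
  rwa [← MonoidHom.range_eq_map, Subgroup.range_subtype] at this

theorem SN.split {l : ℕ} {H : Subgroup G} (h : SN l H) (f : G →* Q) :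
    ∃ a b, SN a (H.subgroupOf f.ker) ∧ SN b (H.map f) ∧ l ≤ a + b := by
  induction h with
  | bot => exact ⟨0, 0, by rw [Subgroup.bot_subgroupOf]; exact SN.bot, by rw [Subgroup.map_bot]; exact SN.bot, le_rfl⟩
  | @step k H K _ hlt hn ih =>
    obtain ⟨a, b, ha, hb, hab⟩ := ih
    have n1 : ∀ x ∈ K.subgroupOf f.ker, ∀ h ∈ H.subgroupOf f.ker, x * h * x⁻¹ ∈ H.subgroupOf f.ker := fun x hx h hh => hn x hx h hh
    have n2 : ∀ x ∈ K.map f, ∀ h ∈ H.map f, x * h * x⁻¹ ∈ H.map f := by
      rintro _ ⟨x, hx, rfl⟩ _ ⟨y, hy, rfl⟩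
      exact ⟨x * y * x⁻¹, hn x hx y hy, by simp⟩
    have l1 : H.subgroupOf f.ker ≤ K.subgroupOf f.ker := fun x hx => hlt.le hx
    have l2 : H.map f ≤ K.map f := Subgroup.map_mono hlt.le
    by_cases h1 : H.subgroupOf f.ker = K.subgroupOf f.ker
    · by_cases h2 : H.map f = K.map f
      · exfalso
        apply hlt.ne
        refine le_antisymm hlt.le (fun x hx => ?_)
        have hx2 : f x ∈ H.map f := by rw [h2]; exact ⟨x, hx, rfl⟩
        obtain ⟨y, hy, hyx⟩ := hx2
        have h3 : y⁻¹ * x ∈ f.ker := by rw [MonoidHom.mem_ker, map_mul, map_inv, hyx, inv_mul_cancel]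
        have h4 : (⟨y⁻¹ * x, h3⟩ : f.ker) ∈ K.subgroupOf f.ker := K.mul_mem (K.inv_mem (hlt.le hy)) hx
        rw [← h1] at h4
        have h5 : y⁻¹ * x ∈ H := h4
        have := H.mul_mem hy h5
        rwa [mul_inv_cancel_left] at this
      · exact ⟨a, b + 1, h1 ▸ ha, SN.step hb (lt_of_le_of_ne l2 h2) n2, by omega⟩
    · by_cases h2 : H.map f = K.map f
      · exact ⟨a + 1, b, SN.step ha (lt_of_le_of_ne l1 h1) n1, h2 ▸ hb, by omega⟩
      · exact ⟨a + 1, b + 1, SN.step ha (lt_of_le_of_ne l1 h1) n1, SN.step hb (lt_of_le_of_ne l2 h2) n2, by omega⟩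

theorem SN.comap {b : ℕ} {K : Subgroup Q} (h : SN b K) (f : G →* Q) (hf : Function.Surjective f) {a : ℕ} (ha : SN a f.ker) :
    SN (a + b) (K.comap f) := by
  induction h with
  | bot => exact ha
  | @step k H K _ hlt hn ih =>
    refine SN.step ih ?_ ?_
    · exact lt_of_le_of_ne (Subgroup.comap_mono hlt.le) (fun h => hlt.ne (Subgroup.comap_injective hf h))
    · intro x hx y hy
      rw [Subgroup.mem_comap] at hx hy ⊢
      rw [map_mul, map_mul, map_inv]
      exact hn _ hx _ hy

theorem cl_eq [Finite G] [Finite Q] (f : G →* Q) (hf : Function.Surjective f) : cl G = cl f.ker + cl Q := by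
  apply le_antisymm
  · obtain ⟨a, b, ha, hb, hab⟩ := (cl_spec (G := G)).split f
    rw [Subgroup.top_subgroupOf] at ha
    have h2 : (⊤ : Subgroup G).map f = ⊤ := by
      rw [← MonoidHom.range_eq_map]; exact MonoidHom.range_eq_top.mpr hf
    rw [h2] at hb
    exact hab.trans (add_le_add (le_cl ha) (le_cl hb))
  · apply le_cl
    have := (cl_spec (G := Q)).comap f hf (SN_cl_coe f.ker)
    rwa [Subgroup.comap_top] at this

theorem SN.pos_of_ne {k : ℕ} {H : Subgroup G} (h : SN k H) (h0 : H = ⊥) : k = 0 := by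
  cases h with
  | bot => rfl
  | step _ hlt _ => exact absurd (h0 ▸ hlt) not_lt_bot

theorem cl_simple [Finite G] [IsSimpleGroup G] : cl G ≤ 1 := by
  have h := cl_spec (G := G)
  generalize cl G = k at h
  generalize hT : (⊤ : Subgroup G) = T at h
  cases h with
  | bot => omega
  | @step j H K hs hlt hn =>
    have hHn : H.Normal := ⟨fun n hn' g => hn g (by rw [← hT]; trivial) n hn'⟩
    rcases hHn.eq_bot_or_eq_top with h | h
    · have := hs.pos_of_ne h; omega
    · rw [h, hT] at hlt; exact absurd hlt (lt_irrefl _)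

theorem cl_subsingleton [Finite G] [Subsingleton G] : cl G = 0 := by
  apply (cl_spec (G := G)).pos_of_ne
  exact Subsingleton.elim _ _

theorem cl_prod [Finite G] [Finite Q] : cl (G × Q) = cl G + cl Q := by
  rw [cl_eq (MonoidHom.snd G Q) (fun q => ⟨(1, q), rfl⟩)]
  congr 1
  apply cl_congr
  exact {
    toFun := fun x => x.1.1
    invFun := fun g => ⟨(g, 1), rfl⟩
    left_inv := by
      rintro ⟨⟨a, b⟩, h⟩
      have : b = 1 := h
      subst this; rfl
    right_inv := fun g => rfl
    map_mul' := fun x y => rfl }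

theorem cl_pow [Finite G] [IsSimpleGroup G] : ∀ k : ℕ, cl (Fin k → G) ≤ k := by
  intro k
  induction k with
  | zero =>
    haveI : Subsingleton (Fin 0 → G) := inferInstance
    rw [cl_subsingleton]
  | succ k ih =>
    let e : (Fin (k + 1) → G) ≃* (G × (Fin k → G)) :=
      { toFun := fun f => (f 0, fun i => f i.succ)
        invFun := fun p => Fin.cons p.1 p.2
        left_inv := by intro f; funext i; refine Fin.cases ?_ (fun j => ?_) i <;> simp
        right_inv := by intro p; ext <;> simp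
        map_mul' := by intro f g; rfl }
    rw [cl_congr e, cl_prod]
    have := cl_simple (G := G)
    omega

/-- key lemma: `G = N A` -/
theorem cl_key [Finite G] (N A : Subgroup G) [hN : N.Normal] (h : ∀ g : G, ∃ n ∈ N, ∃ a ∈ A, g = n * a) :
    cl G + cl (N ⊓ A : Subgroup G) = cl N + cl A := by
  have h1 := cl_eq (QuotientGroup.mk' N) (QuotientGroup.mk'_surjective N)
  let f : A →* G ⧸ N := (QuotientGroup.mk' N).comp A.subtype
  have hf : Function.Surjective f := by
    intro q
    obtain ⟨g, rfl⟩ := QuotientGroup.mk'_surjective N q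
    obtain ⟨n, hn, a, ha, rfl⟩ := h g
    refine ⟨⟨a, ha⟩, ?_⟩
    show (a : G ⧸ N) = ((n * a : G) : G ⧸ N)
    rw [QuotientGroup.eq, ← mul_assoc]
    have := hN.conj_mem n hn a⁻¹
    rwa [inv_inv] at this
  have h2 := cl_eq f hf
  have h3 : cl (QuotientGroup.mk' N).ker = cl N := by rw [QuotientGroup.ker_mk']
  have h4 : cl f.ker = cl (N ⊓ A : Subgroup G) := by
    apply cl_congr
    exact {
      toFun := fun x => ⟨x.1.1, by
        have := x.2
        rw [MonoidHom.mem_ker] at this
        exact (QuotientGroup.eq_one_iff _).mp this, x.1.2⟩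
      invFun := fun x => ⟨⟨x.1, x.2.2⟩, (QuotientGroup.eq_one_iff _).mpr x.2.1⟩
      left_inv := fun x => rfl
      right_inv := fun x => rfl
      map_mul' := fun x y => rfl }
  omega

/-- key lemma inside a subgroup `K = N A` -/
theorem cl_key' [Finite G] (N A K : Subgroup G) (hNK : N ≤ K) (hAK : A ≤ K) (hN : ∀ x ∈ K, ∀ n ∈ N, x * n * x⁻¹ ∈ N)
    (h : ∀ g ∈ K, ∃ n ∈ N, ∃ a ∈ A, g = n * a) : cl K + cl (N ⊓ A : Subgroup G) = cl N + cl A := by
  haveI : (N.subgroupOf K).Normal := ⟨fun n hn g => hN g g.2 n hn⟩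
  have h1 := cl_key (G := K) (N.subgroupOf K) (A.subgroupOf K) (by
    intro g
    obtain ⟨n, hn, a, ha, hg⟩ := h g g.2
    exact ⟨⟨n, hNK hn⟩, hn, ⟨a, hAK ha⟩, ha, Subtype.ext hg⟩)
  have h2 : cl (N.subgroupOf K) = cl N := cl_congr (Subgroup.subgroupOfEquivOfLe hNK)
  have h3 : cl (A.subgroupOf K) = cl A := cl_congr (Subgroup.subgroupOfEquivOfLe hAK)
  have h4 : cl (N.subgroupOf K ⊓ A.subgroupOf K : Subgroup K) = cl (N ⊓ A : Subgroup G) := by
    have : (N.subgroupOf K ⊓ A.subgroupOf K : Subgroup K) = (N ⊓ A).subgroupOf K := rfl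
    rw [this]
    exact cl_congr (Subgroup.subgroupOfEquivOfLe (inf_le_left.trans hNK))
  rw [h2, h3, h4] at h1
  exact h1

/-- the composition length bounds all subnormal chains -/
theorem chain_le [Finite G] (l : ℕ) (H : Fin (l + 1) → Subgroup G) (h0 : H 0 = ⊥) (hl : H (Fin.last l) = ⊤)
    (hchain : ∀ i : Fin l, H i.castSucc < H i.succ ∧ ((H i.castSucc).subgroupOf (H i.succ)).Normal) : l ≤ cl G := by
  have h : ∀ i : ℕ, ∀ hi : i < l + 1, SN i (H ⟨i, hi⟩) := by
    intro i
    induction i with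
    | zero => intro hi; have : H ⟨0, hi⟩ = ⊥ := h0; rw [this]; exact SN.bot
    | succ i ih =>
      intro hi
      have h1 := hchain ⟨i, by omega⟩
      refine SN.step (ih (by omega)) h1.1 ?_
      intro x hx y hy
      exact h1.2.conj_mem ⟨y, h1.1.le hy⟩ hy ⟨x, hx⟩
  apply le_cl
  rw [← hl]
  exact h l (Nat.lt_succ_self l)

end basic

end CfsgLib.CL29
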