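import Cfsg.Agent.LibCL29

/-! Bounding the composition length of a permutation group: reduction to primitive groups (seat helper29). -/

set_option autoImplicit false

namespace CfsgLib.CL29

open MulAction

/-- number of orbits -/
noncomputable def orb (G Ω : Type*) [Group G] [MulAction G Ω] : ℕ := Nat.card (Quotient (orbitRel G Ω))

section
variable {G Ω : Type*} [Group G] [MulAction G Ω]

theorem orb_le [Finite Ω] : orb G Ω ≤ Nat.card Ω := Nat.card_le_card_of_surjective _ Quotient.mk_surjective

theorem orb_pos [Finite Ω] [Nonempty Ω] : 1 ≤ orb G Ω := by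
  haveI : Nonempty (Quotient (orbitRel G Ω)) := ⟨Quotient.mk _ (Classical.arbitrary Ω)⟩
  exact Nat.card_pos

theorem orb_eq_one [Finite Ω] [Nonempty Ω] [IsPretransitive G Ω] : orb G Ω = 1 := by
  rw [orb, Nat.card_eq_one_iff_unique]
  constructor
  · constructor
    intro a b
    induction a using Quotient.inductionOn with | _ a =>
    induction b using Quotient.inductionOn with | _ b =>
    apply Quotient.sound
    obtain ⟨g, hg⟩ := exists_smul_eq G b a
    exact ⟨g, hg⟩
  · exact ⟨Quotient.mk _ (Classical.arbitrary Ω)⟩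

/-- `k` orbits are separated by an invariant function -/
theorem le_orb_of_surj [Finite Ω] {X : Type*} (F : Ω → X) (hF : Function.Surjective F) (hinv : ∀ (g : G) (ω : Ω), F (g • ω) = F ω) :
    Nat.card X ≤ orb G Ω := by
  let F' : Quotient (orbitRel G Ω) → X := Quotient.lift F (by
    rintro a b ⟨g, hg⟩
    rw [← hg]; exact hinv g b)
  apply Nat.card_le_card_of_surjective F'
  intro x
  obtain ⟨ω, h⟩ := hF x
  exact ⟨Quotient.mk _ ω, h⟩

/-- `k` orbits from inequivalent points -/
theorem le_orb_of_inj [Finite Ω] {X : Type*} (F : X → Ω) (hinv : ∀ (x y : X) (g : G), g • F x = F y → x = y) :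
    Nat.card X ≤ orb G Ω := by
  apply Nat.card_le_card_of_injective (fun x => (Quotient.mk _ (F x) : Quotient (orbitRel G Ω)))
  intro x y h
  have h1 := Quotient.exact h
  obtain ⟨g, hg⟩ := h1
  exact (hinv y x g hg).symm

theorem fib [Finite G] [Finite Ω] (α : Ω) (L : Subgroup G) (hL : stabilizer G α ≤ L) :
    L.index + orb G Ω ≤ orb L.normalCore Ω + 1 := by
  classical
  let a : Quotient (orbitRel G Ω) := Quotient.mk _ α
  let X := (G ⧸ L) ⊕ {q : Quotient (orbitRel G Ω) // q ≠ a}
  have hna : ∀ ω : Ω, ω ∉ orbit G α → (Quotient.mk _ ω : Quotient (orbitRel G Ω)) ≠ a := by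
    intro ω h1 h2
    exact h1 (Quotient.exact h2)
  let F : Ω → X := fun ω => if h : ω ∈ orbit G α then Sum.inl ((Classical.choose h : G) : G ⧸ L) else Sum.inr ⟨Quotient.mk _ ω, hna ω h⟩
  have hF1 : ∀ g : G, F (g • α) = Sum.inl (g : G ⧸ L) := by
    intro g
    have h : g • α ∈ orbit G α := mem_orbit _ _
    simp only [F, dif_pos h]
    congr 1
    rw [QuotientGroup.eq]
    apply hL
    rw [mem_stabilizer_iff, mul_smul]
    have h3 : ∀ c : G, c • α = g • α → c⁻¹ • g • α = α := by
      intro c hc
      rw [← hc, inv_smul_smul]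
    exact h3 _ (Classical.choose_spec h)
  have hF2 : ∀ ω (h : ω ∉ orbit G α), F ω = Sum.inr ⟨Quotient.mk _ ω, hna ω h⟩ := by
    intro ω h
    simp only [F, dif_neg h]
  have hsurj : Function.Surjective F := by
    rintro (q | ⟨q, hq⟩)
    · obtain ⟨g, rfl⟩ := QuotientGroup.mk_surjective q
      exact ⟨_, hF1 g⟩
    · induction q using Quotient.inductionOn with | _ ω =>
      have h : ω ∉ orbit G α := fun h => hq (Quotient.sound h)
      exact ⟨ω, hF2 ω h⟩
  have hinv : ∀ (k : L.normalCore) (ω : Ω), F (k • ω) = F ω := by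
    intro k ω
    by_cases h : ω ∈ orbit G α
    · obtain ⟨g, rfl⟩ := h
      have h1 : (k : L.normalCore) • g • α = ((k : G) * g) • α := by rw [mul_smul]; rfl
      show F (k • g • α) = F (g • α)
      rw [h1, hF1, hF1]
      congr 1
      rw [QuotientGroup.eq]
      have h2 : g⁻¹ * (k : G)⁻¹ * g⁻¹⁻¹ ∈ L := by
        have := k.2 g⁻¹
        have h3 := L.inv_mem this
        simpa [mul_assoc] using h3
      simpa [mul_assoc] using h2
    · have h' : k • ω ∉ orbit G α := by
        rintro ⟨g, hg⟩
        apply h
        refine ⟨(k : G)⁻¹ * g, ?_⟩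
        show ((k : G)⁻¹ * g) • α = ω
        rw [mul_smul]
        have : g • α = (k : G) • ω := hg
        rw [this, inv_smul_smul]
      rw [hF2 _ h, hF2 _ h']
      congr 2
      apply Quotient.sound
      exact ⟨(k : G), rfl⟩
  have h := le_orb_of_surj (G := L.normalCore) F hsurj hinv
  have h2 : Nat.card X = L.index + Nat.card {q : Quotient (orbitRel G Ω) // q ≠ a} := by
    rw [Nat.card_sum]; rfl
  have h3 : Nat.card {q : Quotient (orbitRel G Ω) // q ≠ a} + 1 = orb G Ω := by
    rw [orb, ← Nat.card_congr (Equiv.optionSubtypeNe a), Finite.card_option]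
  omega

end

/-- the bound -/
def Good (G Ω : Type) [Group G] [MulAction G Ω] : Prop := 3 * cl G + 4 * orb G Ω ≤ 4 * Nat.card Ω

/-- induction hypothesis -/
def IH (m : ℕ) : Prop := ∀ (G : Type) [Group G] [Finite G] (Ω : Type) [Finite Ω] [MulAction G Ω] [FaithfulSMul G Ω], Nat.card G < m → Good G Ω

theorem reduce (hprim : ∀ (G : Type) [Group G] [Finite G] (Ω : Type) [Finite Ω] [MulAction G Ω] [FaithfulSMul G Ω] [IsPretransitive G Ω],
      IH (Nat.card G) → ∀ α : Ω, IsCoatom (stabilizer G α) → 3 * cl G + 4 ≤ 4 * Nat.card Ω) :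
    ∀ (m : ℕ), IH m := by
  intro m
  induction m with
  | zero => intro G _ _ Ω _ _ _ h; omega
  | succ m ih =>
    suffices hmain : ∀ (n : ℕ) (G : Type) [Group G] [Finite G] (Ω : Type) [Finite Ω] [MulAction G Ω] [FaithfulSMul G Ω],
        Nat.card G ≤ m → Nat.card Ω = n → Good G Ω by
      intro G _ _ Ω _ _ _ h
      exact hmain _ G Ω (by omega) rfl
    intro n
    induction n using Nat.strong_induction_on with
    | _ n ihn =>
    intro G _ _ Ω _ _ _ hG hΩ
    -- IH for smaller groups
    have ihG : IH (Nat.card G) := by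
      intro G' _ _ Ω' _ _ _ h
      exact ih G' Ω' (by omega)
    have hred : ∀ (α : Ω) (L : Subgroup G), stabilizer G α ≤ L → L ≠ ⊤ → L.index < Nat.card Ω → Good G Ω := by
      intro α L hL hLt hLi
      have hK : L.normalCore ≠ ⊤ := fun h => hLt (top_le_iff.mp (h ▸ L.normalCore_le))
      have h1 : Good L.normalCore Ω := by
        apply ihG
        by_contra hcon
        push Not at hcon
        exact hK (Subgroup.eq_top_of_le_card _ hcon)
      set R := (toPermHom G (G ⧸ L)).range with hR
      have h2 : Good R (G ⧸ L) := by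
        apply ihn (Nat.card (G ⧸ L)) (by rw [← hΩ]; exact hLi) R (G ⧸ L)
        · refine le_trans ?_ hG
          exact Nat.card_le_card_of_surjective _ (toPermHom G (G ⧸ L)).rangeRestrict_surjective
        · rfl
      have h3 := cl_eq (toPermHom G (G ⧸ L)).rangeRestrict (toPermHom G (G ⧸ L)).rangeRestrict_surjective
      have h4 : cl (toPermHom G (G ⧸ L)).rangeRestrict.ker = cl L.normalCore := by
        rw [MonoidHom.ker_rangeRestrict, Subgroup.normalCore_eq_ker]
      have h5 : 1 ≤ orb R (G ⧸ L) := orb_pos
      have h6 := fib α L hL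
      have h7 : Nat.card (G ⧸ L) = L.index := rfl
      rw [Good] at h1 h2 ⊢
      change cl G = _ + cl R at h3
      omega
    by_cases htriv : ∀ α : Ω, stabilizer G α = ⊤
    · haveI : Subsingleton G := by
        constructor
        intro a b
        apply eq_of_smul_eq_smul (α := Ω)
        intro ω
        have h1 : a ∈ stabilizer G ω := by rw [htriv]; trivial
        have h2 : b ∈ stabilizer G ω := by rw [htriv]; trivial
        rw [mem_stabilizer_iff] at h1 h2
        rw [h1, h2]
      rw [Good, cl_subsingleton]
      have := orb_le (G := G) (Ω := Ω)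
      omega
    · push Not at htriv
      obtain ⟨α, hα⟩ := htriv
      by_cases h1 : (stabilizer G α).index < Nat.card Ω
      · exact hred α _ le_rfl hα h1
      · -- transitive
        have h2 : (stabilizer G α).index = Nat.card (orbit G α) := by
          rw [index_stabilizer]; rfl
        have h3 : orbit G α = Set.univ := by
          apply Set.eq_of_subset_of_ncard_le (Set.subset_univ _)
          rw [Set.ncard_univ, ← Nat.card_coe_set_eq]; omega
        haveI : IsPretransitive G Ω := by
          constructor
          intro x y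
          have hx : x ∈ orbit G α := by rw [h3]; trivial
          have hy : y ∈ orbit G α := by rw [h3]; trivial
          obtain ⟨a, rfl⟩ := hx
          obtain ⟨b, rfl⟩ := hy
          exact ⟨b * a⁻¹, by simp [mul_smul]⟩
        by_cases h4 : IsCoatom (stabilizer G α)
        · have := hprim G Ω ihG α h4
          haveI : Nonempty Ω := ⟨α⟩
          rw [Good, orb_eq_one]
          omega
        · have h5 : ∃ L : Subgroup G, stabilizer G α < L ∧ L ≠ ⊤ := by
            by_contra hcon
            push Not at hcon
            exact h4 ⟨hα, hcon⟩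
          obtain ⟨L, hL1, hL2⟩ := h5
          refine hred α L hL1.le hL2 ?_
          have h6 : (stabilizer G α).relIndex L * L.index = (stabilizer G α).index := Subgroup.relIndex_mul_index hL1.le
          have h7 : (stabilizer G α).relIndex L ≠ 1 := by
            intro h
            rw [Subgroup.relIndex_eq_one] at h
            exact absurd h (not_le_of_gt hL1)
          have h8 : L.index ≠ 0 := Subgroup.index_ne_zero_of_finite
          have h9 : (stabilizer G α).index ≠ 0 := Subgroup.index_ne_zero_of_finite
          have h10 : (stabilizer G α).relIndex L ≠ 0 := by intro h; rw [h, zero_mul] at h6; exact h9 h6.symm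
          have h11 : (stabilizer G α).index ≤ Nat.card Ω := by rw [h2]; exact Finite.card_subtype_le _
          nlinarith [Nat.pos_of_ne_zero h8, Nat.two_le_iff _ |>.mpr ⟨h10, h7⟩]

end CfsgLib.CL29
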