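import Cfsg.Agent.LibCLB29
import Cfsg.Agent.LibH14Prim

/-! Bounding the composition length of a primitive permutation group: affine case (seat helper29). -/

set_option autoImplicit false

namespace CfsgLib.CL29

open MulAction CfsgLib.SolvMin CfsgLib.H14Prim

theorem num1 : ∀ d : ℕ, 4 ≤ d → 3 * (d + d * d) + 4 ≤ 4 * 2 ^ d := by
  intro d hd
  induction d, hd using Nat.le_induction with
  | base => norm_num
  | succ d hd ih =>
    rw [pow_succ]
    nlinarith

theorem num2 (p : ℕ) (hp : 3 ≤ p) : ∀ d : ℕ, 2 ≤ d → 3 * (d + (p - 1) * (d * d)) + 4 ≤ 4 * p ^ d := by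
  obtain ⟨q, rfl⟩ : ∃ q, p = q + 3 := ⟨p - 3, by omega⟩
  intro d hd
  have e : q + 3 - 1 = q + 2 := by omega
  rw [e]
  induction d, hd using Nat.le_induction with
  | base => nlinarith
  | succ d hd ih =>
    rw [pow_succ]
    have h1 : 3 * (3 * (d + (q + 2) * (d * d)) + 4) ≤ 4 * ((q + 3) ^ d * (q + 3)) := by
      calc 3 * (3 * (d + (q + 2) * (d * d)) + 4) ≤ 3 * (4 * (q + 3) ^ d) := Nat.mul_le_mul_left _ ih
        _ ≤ 4 * ((q + 3) ^ d * (q + 3)) := by nlinarith [Nat.zero_le ((q + 3) ^ d * q)]
    have h2 : 3 * (d + 1 + (q + 2) * ((d + 1) * (d + 1))) + 4 ≤ 3 * (3 * (d + (q + 2) * (d * d)) + 4) := by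
      obtain ⟨e, rfl⟩ : ∃ e, d = e + 2 := ⟨d - 2, by omega⟩
      ring_nf
      nlinarith [Nat.zero_le (q * e), Nat.zero_le (q * e ^ 2)]
    exact h2.trans h1

theorem le_two_pow_sub (p : ℕ) (hp : 1 ≤ p) : p ≤ 2 ^ (p - 1) := by
  have := Nat.lt_two_pow_self (n := p - 1)
  omega

variable {G Ω : Type} [Group G] [Finite G] [Finite Ω] [MulAction G Ω] [FaithfulSMul G Ω]

theorem two_le_orb (α : Ω) (H : Subgroup G) (hH : H ≤ stabilizer G α) (hn : 2 ≤ Nat.card Ω) : 2 ≤ orb H Ω := by
  obtain ⟨β, hβ⟩ : ∃ β : Ω, β ≠ α := by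
    haveI : Nontrivial Ω := Finite.one_lt_card_iff_nontrivial.mp (by omega)
    exact exists_ne α
  have := le_orb_of_inj (G := H) (X := Bool) (fun b => if b then α else β) (by
    intro x y g hg
    have h1 : (g : G) • α = α := hH g.2
    have h1' : (g : H) • α = α := h1
    cases x <;> cases y
    · rfl
    · exfalso
      simp only [Bool.false_eq_true, if_false, if_true] at hg
      apply hβ
      have h2 : g • β = g • α := by rw [hg, h1']
      exact MulAction.injective g h2
    · exfalso
      simp only [Bool.false_eq_true, if_false, if_true] at hg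
      rw [h1'] at hg
      exact hβ hg.symm
    · rfl)
  simpa using this

theorem three_le_orb (α β γ : Ω) (H : Subgroup G) (hH : H ≤ stabilizer G α) (h1 : β ≠ α) (h2 : γ ≠ α) (h3 : ∀ h ∈ H, h • β ≠ γ) : 3 ≤ orb H Ω := by
  have hfix : ∀ (g : H), g • α = α := fun g => hH g.2
  have hne : ∀ (g : H) (ω : Ω), ω ≠ α → g • ω ≠ α := by
    intro g ω hω h
    apply hω
    have : g • ω = g • α := by rw [h, hfix]
    exact MulAction.injective g this
  have h3' : ∀ g : H, g • β ≠ γ := fun g => h3 g g.2
  have h4' : ∀ g : H, g • γ ≠ β := by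
    intro g hg
    apply h3' g⁻¹
    rw [← hg, inv_smul_smul]
  have := le_orb_of_inj (G := H) (X := Fin 3) ![α, β, γ] (by
    intro x y g hg
    fin_cases x <;> fin_cases y <;> simp at hg ⊢
    · rw [hfix] at hg; exact h1 hg.symm
    · rw [hfix] at hg; exact h2 hg.symm
    · exact hne g β h1 hg
    · exact h3' g hg
    · exact hne g γ h2 hg
    · exact h4' g hg)
  simpa using this

theorem factorize [IsPretransitive G Ω] (α : Ω) (N : Subgroup G) (htr : IsPretransitive N Ω) (g : G) : ∃ n ∈ N, ∃ a ∈ stabilizer G α, g = n * a := by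
  obtain ⟨n, hn⟩ := htr.exists_smul_eq α (g • α)
  refine ⟨n, n.2, (n : G)⁻¹ * g, ?_, by simp⟩
  rw [mem_stabilizer_iff, mul_smul, ← hn]
  exact inv_smul_smul (n : G) α

omit [Finite G] [Finite Ω] [MulAction G Ω] [FaithfulSMul G Ω] [Group G] in
theorem card_le_of_faithful' {p : ℕ} [Fact p.Prime] {V : Type} [AddCommGroup V] [Finite V] [Module (ZMod p) V] {X : Type} [Finite X]
    (φ : X → (V →+ V)) (hφ : Function.Injective φ) (hφ0 : ∀ x v, φ x v = 0 → v = 0) :
    ∃ d, Nat.card V = p ^ d ∧ Nat.card X ≤ (Nat.card V - 1) ^ d := by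
  haveI : Module.Finite (ZMod p) V := Module.Finite.of_finite
  let b : Module.Basis (Fin (Module.finrank (ZMod p) V)) (ZMod p) V := Module.finBasis (ZMod p) V
  refine ⟨Module.finrank (ZMod p) V, ?_, ?_⟩
  · have h1 : Nat.card V = Nat.card (ZMod p) ^ Module.finrank (ZMod p) V := Module.natCard_eq_pow_finrank (K := ZMod p) (V := V)
    rwa [Nat.card_zmod] at h1
  · let F : X → (Fin (Module.finrank (ZMod p) V) → {v : V // v ≠ 0}) := fun x i => ⟨φ x (b i), fun h => b.ne_zero i (hφ0 x _ h)⟩
    have hF : Function.Injective F := by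
      intro x y hxy
      apply hφ
      have h1 : (φ x).toZModLinearMap p = (φ y).toZModLinearMap p := by
        apply b.ext
        intro i
        exact congrArg Subtype.val (congrFun hxy i)
      ext v
      exact congrArg (fun f : V →ₗ[ZMod p] V => f v) h1
    have h1 := Nat.card_le_card_of_injective F hF
    classical
    have h2 : Nat.card {v : V // v ≠ 0} = Nat.card V - 1 := by
      have : Nat.card {v : V // v ≠ 0} + 1 = Nat.card V := by
        rw [← Nat.card_congr (Equiv.optionSubtypeNe (0 : V)), Finite.card_option]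
      omega
    rw [Nat.card_fun, h2, Nat.card_fin] at h1
    exact h1

omit [Finite G] [Finite Ω] [MulAction G Ω] [FaithfulSMul G Ω] [Group G] in
theorem card_le_of_faithful {p : ℕ} [Fact p.Prime] {V : Type} [AddCommGroup V] [Finite V] (hp : ∀ x : V, p • x = 0) {X : Type} [Finite X]
    (φ : X → (V →+ V)) (hφ : Function.Injective φ) (hφ0 : ∀ x v, φ x v = 0 → v = 0) :
    ∃ d, Nat.card V = p ^ d ∧ Nat.card X ≤ (Nat.card V - 1) ^ d := by
  letI : Module (ZMod p) V := AddCommGroup.zmodModule hp
  exact card_le_of_faithful' φ hφ hφ0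

theorem affine [IsPretransitive G Ω] (ih : IH (Nat.card G)) (α : Ω) (hα : IsCoatom (stabilizer G α)) (N : Subgroup G)
    (hN : IsMinNormal N) (hab : IsMulCommutative N) : 3 * cl G + 4 ≤ 4 * Nat.card Ω := by
  classical
  haveI hNn : N.Normal := hN.1
  have hn2 : 2 ≤ Nat.card Ω := by
    by_contra hcon
    apply hα.1
    have h1 : (stabilizer G α).index = Nat.card (orbit G α) := by rw [index_stabilizer]; rfl
    have h2 : Nat.card (orbit G α) ≤ Nat.card Ω := Finite.card_subtype_le _
    have h3 : (stabilizer G α).index ≠ 0 := Subgroup.index_ne_zero_of_finite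
    rw [← Subgroup.index_eq_one]; omega
  haveI : Nontrivial Ω := Finite.one_lt_card_iff_nontrivial.mp (by omega)
  have hprim : IsPreprimitive G Ω := (isCoatom_stabilizer_iff_preprimitive G α).mp hα
  obtain ⟨⟨p, hp, hpN⟩, htr, hreg⟩ := CfsgLib.H14Prim.abelian_case hprim N hN hab
  haveI : Fact p.Prime := ⟨hp⟩
  set H := stabilizer G α with hH
  have hHlt : Nat.card H < Nat.card G := by
    by_contra hcon
    push Not at hcon
    exact hα.1 (Subgroup.eq_top_of_le_card _ hcon)
  have hkey := cl_key N H (factorize α N htr)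
  have hgood : Good H Ω := ih H Ω hHlt
  rw [Good] at hgood
  have horb := two_le_orb α H le_rfl hn2
  -- card
  have hcard : Nat.card Ω = Nat.card N := by
    have h1 : Nat.card (orbit N α) = Nat.card Ω := by
      rw [orbit_eq_univ]; exact Nat.card_congr (Equiv.Set.univ Ω)
    have h2 : Nat.card (orbit N α) = Nat.card N := by
      have h3 : (stabilizer N α).index = Nat.card (orbit N α) := by rw [index_stabilizer]; rfl
      rw [← h3, hreg α, Subgroup.index_bot]
    omega
  letI : CommGroup N := { (inferInstance : Group N) with mul_comm := hab.is_comm.comm }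
  haveI : Finite (Additive N) := inferInstanceAs (Finite N)
  obtain ⟨d, hcardN', hHcard'⟩ := card_le_of_faithful (p := p) (V := Additive N) (by
    intro x
    have := hpN (Additive.toMul x : N).1 (Additive.toMul x : N).2
    exact congrArg Additive.ofMul (Subtype.ext this : (Additive.toMul x : N) ^ p = 1)) (X := H)
    (fun h => MonoidHom.toAdditive (MulAut.conjNormal (h : G) : N ≃* N).toMonoidHom) (by
      intro h h' hh
      have h3 : ∀ n : N, MulAut.conjNormal (h : G) n = MulAut.conjNormal (h' : G) n := fun n => congrArg (fun f : Additive N →+ Additive N => (Additive.toMul (f (Additive.ofMul n)) : N)) hh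
      have h4 : ∀ n ∈ N, (h : G) * n * (h : G)⁻¹ = h' * n * (h' : G)⁻¹ := by
        intro n hn
        have := congrArg Subtype.val (h3 ⟨n, hn⟩)
        rwa [MulAut.conjNormal_apply, MulAut.conjNormal_apply] at this
      have h5 : (h : G)⁻¹ * h' ∈ Subgroup.centralizer (N : Set G) := by
        rw [Subgroup.mem_centralizer_iff]
        intro n hn
        have h6 := h4 n hn
        have h7 : (h : G) * n = h' * n * (h' : G)⁻¹ * h := by rw [← h6]; group
        have h8 : n = (h : G)⁻¹ * (h' * n * (h' : G)⁻¹ * h) := by rw [← h7]; group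
        calc n * ((h : G)⁻¹ * h') = ((h : G)⁻¹ * (h' * n * (h' : G)⁻¹ * h)) * ((h : G)⁻¹ * h') := by rw [← h8]
          _ = _ := by group
      have h6 := semiregular_of_commute (Ω := Ω) N (Subgroup.centralizer (N : Set G)) htr
        (fun c hc n hn => Subgroup.mem_centralizer_iff.mp hn c hc) _ h5 α (H.mul_mem (H.inv_mem h.2) h'.2)
      apply Subtype.ext
      rw [inv_mul_eq_one] at h6
      exact h6) (by
      intro h v hv
      exact (map_eq_one_iff (MulAut.conjNormal (h : G) : N ≃* N) (MulEquiv.injective _)).mp hv)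
  have hcardN : Nat.card N = p ^ d := hcardN'
  have hHcard : Nat.card H ≤ (Nat.card N - 1) ^ d := hHcard'
  have hclN : cl N ≤ d := by
    have h1 := cl_le_card (G := N)
    rw [hcardN, ArithmeticFunction.cardFactors_apply_prime_pow hp] at h1
    exact h1
  have hd1 : 1 ≤ d := by
    by_contra hcon
    have : d = 0 := by omega
    rw [this, pow_zero] at hcardN
    omega
  have hcl2 : 2 ^ cl H ≤ Nat.card H := two_pow_cl
  have hNpos : 1 ≤ Nat.card N := Nat.card_pos
  by_cases hd1' : d = 1
  · omega
  by_cases hp2 : p = 2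
  · subst hp2
    by_cases hd2 : d = 2
    · rw [hd2] at hcardN; omega
    by_cases hd3 : d = 3
    · rw [hd3] at hcardN hHcard
      have hΩ8 : Nat.card Ω = 8 := by rw [hcard, hcardN]; norm_num
      have hN8 : Nat.card N = 8 := by rw [hcardN]; norm_num
      suffices cl H ≤ 6 by omega
      by_cases h3 : 3 ≤ orb H Ω
      · omega
      -- transitive on the other points
      obtain ⟨β, hβ⟩ := exists_ne α
      have horbβ : ∀ γ, γ ≠ α → ∃ h ∈ H, h • β = γ := by
        intro γ hγ
        by_contra hcon
        push Not at hcon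
        exact h3 (three_le_orb α β γ H le_rfl hβ hγ hcon)
      have h7 : Nat.card (orbit H β) = 7 := by
        have e1 : Nat.card {ω : Ω // ω ≠ α} + 1 = Nat.card Ω := by
          rw [← Nat.card_congr (Equiv.optionSubtypeNe α), Finite.card_option]
        have e2 : orbit H β = {ω : Ω | ω ≠ α} := by
          ext γ
          constructor
          · rintro ⟨h, rfl⟩
            intro hc
            have hc' : (h : G) • β = α := hc
            have h4 : (h : G) • α = α := h.2
            exact hβ (MulAction.injective (h : G) (hc'.trans h4.symm))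
          · intro hγ
            obtain ⟨h, hh, h5⟩ := horbβ γ hγ
            exact ⟨⟨h, hh⟩, h5⟩
        have e3 : Nat.card (orbit H β) = Nat.card {ω : Ω // ω ≠ α} := by rw [e2]; rfl
        omega
      have h8 : 7 ∣ Nat.card H := by
        rw [← h7]
        have : (stabilizer H β).index = Nat.card (orbit H β) := by rw [index_stabilizer]; rfl
        rw [← this]
        exact Subgroup.index_dvd_card _
      obtain ⟨m, hm⟩ := h8
      have hHle : Nat.card H ≤ 343 := by
        rw [hN8] at hHcard
        norm_num at hHcard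
        exact hHcard
      have hm0 : m ≠ 0 := by
        rintro rfl
        have : 0 < Nat.card H := Nat.card_pos
        omega
      have h9 := cl_le_card (G := H)
      rw [hm, ArithmeticFunction.cardFactors_mul (by norm_num) hm0, ArithmeticFunction.cardFactors_apply_prime (show Nat.Prime 7 by norm_num)] at h9
      have h10 := two_pow_cardFactors hm0
      have h11 : ArithmeticFunction.cardFactors m < 6 := by
        by_contra hcon
        push Not at hcon
        have : 2 ^ 6 ≤ 2 ^ ArithmeticFunction.cardFactors m := Nat.pow_le_pow_right (by norm_num) hcon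
        omega
      omega
    · have hd4 : 4 ≤ d := by omega
      have h1 : 2 ^ cl H ≤ 2 ^ (d * d) := by
        calc 2 ^ cl H ≤ (Nat.card N - 1) ^ d := hcl2.trans hHcard
          _ ≤ (Nat.card N) ^ d := Nat.pow_le_pow_left (by omega) _
          _ = 2 ^ (d * d) := by rw [hcardN, pow_mul]
      have h2 : cl H ≤ d * d := (Nat.pow_le_pow_iff_right (by norm_num)).mp h1
      have h3 := num1 d hd4
      rw [hcard, hcardN]
      omega
  · have hp3 : 3 ≤ p := by have := hp.two_le; omega
    have h1 : 2 ^ cl H ≤ 2 ^ ((p - 1) * (d * d)) := by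
      calc 2 ^ cl H ≤ (Nat.card N - 1) ^ d := hcl2.trans hHcard
        _ ≤ (Nat.card N) ^ d := Nat.pow_le_pow_left (by omega) _
        _ = p ^ (d * d) := by rw [hcardN, pow_mul]
        _ ≤ (2 ^ (p - 1)) ^ (d * d) := Nat.pow_le_pow_left (le_two_pow_sub p (by omega)) _
        _ = 2 ^ ((p - 1) * (d * d)) := (pow_mul _ _ _).symm
    have h2 : cl H ≤ (p - 1) * (d * d) := (Nat.pow_le_pow_iff_right (by norm_num)).mp h1
    have h3 := num2 p hp3 d (by omega)
    rw [hcard, hcardN]
    omega

end CfsgLib.CL29
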