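import Mathlib

/-! Automorphisms of powers of a non-abelian simple group; subgroups of such powers (seat helper29). -/

set_option autoImplicit false

namespace CfsgLib.PowAut29

variable {T : Type*} [Group T] {k : ℕ}

/-- elements commuting with everything are trivial in a nonabelian simple group -/
theorem center_triv [IsSimpleGroup T] (hT : ¬ IsMulCommutative T) {c : T} (hc : ∀ t, c * t = t * c) : c = 1 := by
  have hz : Subgroup.center T = ⊥ := by
    rcases (inferInstance : (Subgroup.center T).Normal).eq_bot_or_eq_top with h | h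
    · exact h
    · exfalso; apply hT
      refine ⟨⟨fun a b => ?_⟩⟩
      have : a ∈ Subgroup.center T := h ▸ Subgroup.mem_top _
      exact (Subgroup.mem_center_iff.mp this b).symm
  have : c ∈ Subgroup.center T := Subgroup.mem_center_iff.mpr (fun g => (hc g).symm)
  rwa [hz, Subgroup.mem_bot] at this

/-- a normal subset-subgroup given by a predicate is everything -/
theorem all_of_normal [IsSimpleGroup T] (S : Subgroup T) (hn : ∀ t, ∀ s ∈ S, t * s * t⁻¹ ∈ S) {s : T} (hs : s ∈ S) (hs1 : s ≠ 1) (t : T) : t ∈ S := by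
  have hS : S.Normal := ⟨fun n h g => hn g n h⟩
  rcases hS.eq_bot_or_eq_top with h | h
  · rw [h, Subgroup.mem_bot] at hs; exact absurd hs hs1
  · rw [h]; trivial

theorem hom_inj [IsSimpleGroup T] {U : Type*} [Group U] (f : T →* U) {t : T} (ht : f t ≠ 1) : Function.Injective f := by
  rw [← MonoidHom.ker_eq_bot_iff]
  rcases (inferInstance : f.ker.Normal).eq_bot_or_eq_top with h | h
  · exact h
  · exfalso; apply ht
    have : t ∈ f.ker := by rw [h]; trivial
    exact this

/-- monomial normal form -/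
def NF (φ : (Fin k → T) ≃* (Fin k → T)) (π : Equiv.Perm (Fin k)) : Prop :=
  ∀ i, ∃ ψ : T →* T, Function.Injective ψ ∧ ∀ x, φ x (π i) = ψ (x i)

theorem exists_NF [Finite T] [IsSimpleGroup T] (hT : ¬ IsMulCommutative T) (φ : (Fin k → T) ≃* (Fin k → T)) : ∃ π, NF φ π := by
  classical
  obtain ⟨t₀, ht₀⟩ := exists_ne (1 : T)
  have hcoord : ∀ i j, ∀ s : T, (Pi.mulSingle i s : Fin k → T) j = if j = i then s else 1 := by
    intro i j s
    by_cases h : j = i
    · subst h; simp
    · simp [Pi.mulSingle_eq_of_ne h, h]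
  let ψ : Fin k → Fin k → (T →* T) := fun i j => (Pi.evalMonoidHom (fun _ => T) j).comp (φ.toMonoidHom.comp (MonoidHom.mulSingle (fun _ : Fin k => T) i))
  have hψ : ∀ i j a, ψ i j a = φ (Pi.mulSingle i a) j := fun i j a => rfl
  have h1 : ∀ i, ∃ j, Function.Injective (ψ i j) ∧ ∀ a, φ (Pi.mulSingle i a) = Pi.mulSingle j (ψ i j a) := by
    intro i
    have h2 : φ (Pi.mulSingle i t₀) ≠ 1 := by
      intro h
      rw [map_eq_one_iff _ φ.injective] at h
      have := congrFun h i
      rw [hcoord, if_pos rfl] at this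
      exact ht₀ this
    obtain ⟨j, hj⟩ : ∃ j, φ (Pi.mulSingle i t₀) j ≠ 1 := by
      by_contra hcon
      push Not at hcon
      exact h2 (funext hcon)
    have hinj : Function.Injective (ψ i j) := hom_inj _ (t := t₀) hj
    refine ⟨j, hinj, fun a => ?_⟩
    funext j'
    rw [hcoord]
    split_ifs with hjj
    · rw [hjj]; rfl
    · -- the j' coordinate vanishes
      by_contra hcon
      have hinj' : Function.Injective (ψ i j') := hom_inj _ (t := a) hcon
      apply ht₀
      apply hinj
      rw [map_one]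
      apply center_triv hT
      intro s
      -- conjugate by single j s
      set z := φ.symm (Pi.mulSingle j s) with hz
      have hz' : φ z = Pi.mulSingle j s := φ.apply_symm_apply _
      have h3 : z * Pi.mulSingle i t₀ * z⁻¹ = Pi.mulSingle i (z i * t₀ * (z i)⁻¹) := by
        funext l
        simp only [Pi.mul_apply, Pi.inv_apply, hcoord]
        split_ifs with hl
        · subst hl; rfl
        · simp
      have h4 := congrArg φ h3
      rw [map_mul, map_mul, map_inv, hz'] at h4
      have h5 := congrFun h4 j'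
      simp only [Pi.mul_apply, Pi.inv_apply, hcoord, if_neg hjj, one_mul, inv_one, mul_one] at h5
      have h6 : t₀ = z i * t₀ * (z i)⁻¹ := hinj' h5
      have h7 := congrFun h4 j
      simp only [Pi.mul_apply, Pi.inv_apply, hcoord, if_true] at h7
      rw [← h6] at h7
      have h8 : s * ψ i j t₀ * s⁻¹ = ψ i j t₀ := h7
      rw [mul_inv_eq_iff_eq_mul] at h8
      exact h8.symm
  choose π hπinj hπ using h1
  have hπinjective : Function.Injective π := by
    intro i i' hii
    by_contra hne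
    apply ht₀
    apply hπinj i
    rw [map_one]
    apply center_triv hT
    intro s
    have hsurj : Function.Surjective (ψ i' (π i')) := Finite.surjective_of_injective (hπinj i')
    obtain ⟨b, hb⟩ := hsurj s
    have h3 : (Pi.mulSingle i t₀ : Fin k → T) * Pi.mulSingle i' b = Pi.mulSingle i' b * Pi.mulSingle i t₀ := by
      funext l
      simp only [Pi.mul_apply, hcoord]
      split_ifs with h4 h5
      · exact absurd (h4.symm.trans h5) hne
      · simp
      · simp
      · simp
    have h4 := congrArg φ h3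
    rw [map_mul, map_mul, hπ, hπ] at h4
    have h5 := congrFun h4 (π i)
    simp only [Pi.mul_apply, hcoord, hii, if_true] at h5
    rw [hb, ← hii] at h5
    exact h5
  let σ : Equiv.Perm (Fin k) := Equiv.ofBijective π (Finite.injective_iff_bijective.mp hπinjective)
  refine ⟨σ, fun i => ⟨ψ i (π i), hπinj i, fun x => ?_⟩⟩
  show φ x (π i) = ψ i (π i) (x i)
  obtain ⟨y, hx, hyi⟩ : ∃ y : Fin k → T, x = Pi.mulSingle i (x i) * y ∧ y i = 1 :=
    ⟨(Pi.mulSingle i (x i) : Fin k → T)⁻¹ * x, by rw [mul_inv_cancel_left], by simp⟩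
  have hyc : φ y (π i) = 1 := by
    apply center_triv hT
    intro s
    have hsurj : Function.Surjective (ψ i (π i)) := Finite.surjective_of_injective (hπinj i)
    obtain ⟨b, hb⟩ := hsurj s
    have h3 : y * Pi.mulSingle i b = Pi.mulSingle i b * y := by
      funext l
      simp only [Pi.mul_apply, hcoord]
      split_ifs with h4
      · rw [h4, hyi]; simp
      · simp
    have h4 := congrArg φ h3
    rw [map_mul, map_mul, hπ] at h4
    have h5 := congrFun h4 (π i)
    simp only [Pi.mul_apply, hcoord, if_true] at h5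
    rw [hb] at h5
    exact h5
  conv_lhs => rw [hx]
  rw [map_mul, Pi.mul_apply, hyc, mul_one, hπ, hcoord, if_pos rfl]

theorem NF_unique [IsSimpleGroup T] {φ : (Fin k → T) ≃* (Fin k → T)} {π π' : Equiv.Perm (Fin k)} (h : NF φ π) (h' : NF φ π') : π = π' := by
  classical
  obtain ⟨t₀, ht₀⟩ := exists_ne (1 : T)
  ext1 i
  obtain ⟨ψ, hψ, hψx⟩ := h i
  obtain ⟨ψ', hψ', hψx'⟩ := h' (π'.symm (π i))
  rw [Equiv.apply_symm_apply] at hψx'
  by_contra hne
  have h1 : π'.symm (π i) ≠ i := by
    intro hc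
    apply hne
    rw [← Equiv.symm_apply_eq]; exact hc
  have h2 := hψx (Pi.mulSingle i t₀)
  rw [hψx' (Pi.mulSingle i t₀), Pi.mulSingle_eq_of_ne h1, map_one, Pi.mulSingle_eq_same] at h2
  apply ht₀
  apply hψ
  rw [map_one, ← h2]

theorem NF.trans {φ φ' : (Fin k → T) ≃* (Fin k → T)} {π π' : Equiv.Perm (Fin k)} (h : NF φ π) (h' : NF φ' π') : NF (φ.trans φ') (π' * π) := by
  intro i
  obtain ⟨ψ, hψ, hψx⟩ := h i
  obtain ⟨ψ', hψ', hψx'⟩ := h' (π i)
  refine ⟨ψ'.comp ψ, hψ'.comp hψ, fun x => ?_⟩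
  rw [Equiv.Perm.mul_apply, MulEquiv.trans_apply, hψx', hψx]; rfl

theorem NF_inner (y : Fin k → T) : NF (MulAut.conj y) (1 : Equiv.Perm (Fin k)) := by
  intro i
  refine ⟨(MulAut.conj (y i)).toMonoidHom, (MulAut.conj (y i)).injective, fun x => ?_⟩
  simp

/-! ### subgroups of powers -/

/-- independence of a set of coordinates -/
def Ind (M : Subgroup (Fin k → T)) (I : Finset (Fin k)) : Prop := ∀ x ∈ M, (∀ j, j ∉ I → x j = 1) → x = 1

theorem exists_max (M : Subgroup (Fin k → T)) : ∃ I : Finset (Fin k), Ind M I ∧ ∀ j, j ∉ I → ∃ y ∈ M, y ≠ 1 ∧ ∀ l, l ∉ insert j I → y l = 1 := by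
  classical
  obtain ⟨I, hI, hmax⟩ := (Set.toFinite {I : Finset (Fin k) | Ind M I}).exists_maximal ⟨∅, by
    intro x _ hx
    funext j
    exact hx j (by simp)⟩
  refine ⟨I, hI, fun j hj => ?_⟩
  by_contra hcon
  push Not at hcon
  have h1 : Ind M (insert j I) := by
    intro x hx hxs
    by_contra hx1
    obtain ⟨l, hl, hxl⟩ := hcon x hx hx1
    exact hxl (hxs l hl)
  exact hj (hmax h1 (Finset.subset_insert j I) (Finset.mem_insert_self j I))

theorem le_two_mul [IsSimpleGroup T] (hT : ¬ IsMulCommutative T) (M : Subgroup (Fin k → T)) (I : Finset (Fin k)) (hI : Ind M I)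
    (hmax : ∀ j, j ∉ I → ∃ y ∈ M, y ≠ 1 ∧ ∀ l, l ∉ insert j I → y l = 1) (hfull : ∀ i t, ∃ x ∈ M, x i = t)
    (h1 : ∀ j, ∀ x ∈ M, (∀ l, l ≠ j → x l = 1) → x = 1) : k ≤ 2 * I.card := by
  classical
  have hf : ∀ j : {j : Fin k // j ∉ I}, ∃ i : {i : Fin k // i ∈ I}, ∃ y ∈ M, (∀ l, l ∉ insert j.1 I → y l = 1) ∧ y i.1 ≠ 1 := by
    rintro ⟨j, hj⟩
    obtain ⟨y, hy, hy1, hys⟩ := hmax j hj
    have : ∃ i ∈ I, y i ≠ 1 := by
      by_contra hcon
      push Not at hcon
      apply hy1
      apply h1 j y hy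
      intro l hl
      by_cases hlI : l ∈ I
      · exact hcon l hlI
      · exact hys l (by simp [hl, hlI])
    obtain ⟨i, hi, hyi⟩ := this
    exact ⟨⟨i, hi⟩, y, hy, hys, hyi⟩
  choose f hf using hf
  -- projections of D_j
  have hD : ∀ j : {j : Fin k // j ∉ I}, ∀ t : T, ∃ y ∈ M, (∀ l, l ∉ insert j.1 I → y l = 1) ∧ y (f j).1 = t := by
    intro j
    let S : Subgroup T :=
      { carrier := {t | ∃ y ∈ M, (∀ l, l ∉ insert j.1 I → y l = 1) ∧ y (f j).1 = t}
        mul_mem' := by
          rintro a b ⟨y, hy, hys, hya⟩ ⟨z, hz, hzs, hzb⟩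
          exact ⟨y * z, M.mul_mem hy hz, fun l hl => by rw [Pi.mul_apply, hys l hl, hzs l hl, one_mul], by rw [Pi.mul_apply, hya, hzb]⟩
        one_mem' := ⟨1, M.one_mem, fun _ _ => rfl, rfl⟩
        inv_mem' := by
          rintro a ⟨y, hy, hys, hya⟩
          exact ⟨y⁻¹, M.inv_mem hy, fun l hl => by rw [Pi.inv_apply, hys l hl, inv_one], by rw [Pi.inv_apply, hya]⟩ }
    obtain ⟨y, hy, hys, hyi⟩ := hf j
    intro t
    refine all_of_normal S ?_ (s := y (f j).1) ⟨y, hy, hys, rfl⟩ hyi t
    rintro t s ⟨z, hz, hzs, hzt⟩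
    obtain ⟨m, hm, hmt⟩ := hfull (f j).1 t
    refine ⟨m * z * m⁻¹, M.mul_mem (M.mul_mem hm hz) (M.inv_mem hm), ?_, ?_⟩
    · intro l hl
      rw [Pi.mul_apply, Pi.mul_apply, Pi.inv_apply, hzs l hl]; simp
    · rw [Pi.mul_apply, Pi.mul_apply, Pi.inv_apply, hzt, hmt]
  have hfinj : Function.Injective f := by
    intro j j' hjj
    by_contra hne
    apply hT
    refine ⟨⟨fun a b => ?_⟩⟩
    obtain ⟨x, hx, hxs, hxa⟩ := hD j a
    obtain ⟨y, hy, hys, hyb⟩ := hD j' b
    have h2 : x * y * x⁻¹ * y⁻¹ = 1 := by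
      apply hI
      · exact M.mul_mem (M.mul_mem (M.mul_mem hx hy) (M.inv_mem hx)) (M.inv_mem hy)
      · intro l hl
        simp only [Pi.mul_apply, Pi.inv_apply]
        by_cases h3 : l = j.1
        · have h4 : l ∉ insert j'.1 I := by
            rw [Finset.mem_insert, not_or]
            exact ⟨fun h => hne (Subtype.ext (h3.symm.trans h)), hl⟩
          rw [hys l h4]; simp
        · have h4 : l ∉ insert j.1 I := by
            rw [Finset.mem_insert, not_or]; exact ⟨h3, hl⟩
          rw [hxs l h4]; simp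
    rw [mul_inv_eq_one, mul_inv_eq_iff_eq_mul] at h2
    have h3 := congrFun h2 (f j).1
    rw [Pi.mul_apply, Pi.mul_apply, hxa] at h3
    rw [hjj, hyb] at h3
    exact h3
  have h2 := Fintype.card_le_of_injective f hfinj
  have h3 : Fintype.card {i : Fin k // i ∈ I} = I.card := by simp
  have h4 : Fintype.card {j : Fin k // j ∉ I} = k - I.card := by
    rw [Fintype.card_subtype_compl, Fintype.card_fin]; simp
  have h5 : I.card ≤ k := by simpa using Finset.card_le_univ I
  omega

end CfsgLib.PowAut29
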