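import Cfsg.Agent.LibCLC29
import Cfsg.Agent.LibPowAut29
import Cfsg.Agent.S0721

/-! Bounding the composition length of a primitive permutation group: non-abelian socle (seat helper29). -/

set_option autoImplicit false

namespace CfsgLib.CL29

open MulAction CfsgLib.SolvMin CfsgLib.H14Prim CfsgLib.PowAut29

section lower
variable {T : Type*} [Group T] {k : ℕ}

/-- long chain in a subgroup of a power -/
theorem chain_ge [Finite T] (M : Subgroup (Fin k → T)) (I : Finset (Fin k)) (hI : Ind M I)
    (hmax : ∀ j, j ∉ I → ∃ y ∈ M, y ≠ 1 ∧ ∀ l, l ∉ insert j I → y l = 1) : k ≤ cl M + I.card := by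
  classical
  let S : Finset (Fin k) → Subgroup (Fin k → T) := fun J =>
    { carrier := {x | x ∈ M ∧ ∀ j, j ∉ I → j ∉ J → x j = 1}
      mul_mem' := by
        rintro a b ⟨ha, ha'⟩ ⟨hb, hb'⟩
        exact ⟨M.mul_mem ha hb, fun j h1 h2 => by rw [Pi.mul_apply, ha' j h1 h2, hb' j h1 h2, one_mul]⟩
      one_mem' := ⟨M.one_mem, fun _ _ _ => rfl⟩
      inv_mem' := by
        rintro a ⟨ha, ha'⟩
        exact ⟨M.inv_mem ha, fun j h1 h2 => by rw [Pi.inv_apply, ha' j h1 h2, inv_one]⟩ }
  have hS : ∀ J x, x ∈ S J ↔ x ∈ M ∧ ∀ j, j ∉ I → j ∉ J → x j = 1 := fun J x => Iff.rfl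
  have hchain : ∀ J : Finset (Fin k), Disjoint J I → SN J.card (S J) := by
    intro J
    induction J using Finset.induction_on with
    | empty =>
      intro _
      have : S ∅ = ⊥ := by
        rw [eq_bot_iff]
        intro x hx
        rw [hS] at hx
        rw [Subgroup.mem_bot]
        exact hI x hx.1 (fun j hj => hx.2 j hj (by simp))
      rw [this]; exact SN.bot
    | insert a J ha ih =>
      intro hd
      rw [Finset.disjoint_insert_left] at hd
      rw [Finset.card_insert_of_notMem ha]
      refine SN.step (ih hd.2) ?_ ?_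
      · refine lt_of_le_of_ne (fun x hx => ⟨hx.1, fun j h1 h2 => hx.2 j h1 (fun h => h2 (Finset.mem_insert_of_mem h))⟩) ?_
        intro heq
        obtain ⟨y, hy, hy1, hys⟩ := hmax a hd.1
        have h1 : y ∈ S (insert a J) := by
          refine ⟨hy, fun j h1 h2 => hys j ?_⟩
          rw [Finset.mem_insert, not_or] at h2 ⊢
          exact ⟨h2.1, h1⟩
        rw [← heq] at h1
        apply hy1
        apply hI y hy
        intro j hj
        by_cases hja : j = a
        · rw [hja]; exact h1.2 a hd.1 ha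
        · exact hys j (by rw [Finset.mem_insert, not_or]; exact ⟨hja, hj⟩)
      · intro x hx y hy
        refine ⟨M.mul_mem (M.mul_mem hx.1 hy.1) (M.inv_mem hx.1), fun j h1 h2 => ?_⟩
        rw [Pi.mul_apply, Pi.mul_apply, Pi.inv_apply, hy.2 j h1 h2]; simp
  have h1 := hchain (Finset.univ \ I) Finset.sdiff_disjoint
  have h2 : S (Finset.univ \ I) = M := by
    ext x
    rw [hS]
    constructor
    · exact fun h => h.1
    · intro h
      refine ⟨h, fun j h1 h2 => ?_⟩
      exact absurd (Finset.mem_sdiff.mpr ⟨Finset.mem_univ _, h1⟩) h2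
  rw [h2] at h1
  have h3 := h1.le_cl_coe
  rw [Finset.card_sdiff_of_subset (Finset.subset_univ _), Finset.card_univ, Fintype.card_fin] at h3
  omega

end lower

theorem num3 : ∀ i : ℕ, 1 ≤ i → 11 * i ≤ 4 * 3 ^ i := by
  intro i hi
  induction i, hi using Nat.le_induction with
  | base => norm_num
  | succ i hi ih => rw [pow_succ]; nlinarith

variable {G Ω : Type} [Group G] [Finite G] [Finite Ω] [MulAction G Ω] [FaithfulSMul G Ω]

/-- maximality of the stabilizer: invariant subgroups -/
theorem inv_dichotomy {G : Type*} [Group G] (H N X : Subgroup G) (hH : IsCoatom H) (hXN : X ≤ N) (hHX : N ⊓ H ≤ X)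
    (hinv : ∀ h ∈ H, ∀ x ∈ X, h * x * h⁻¹ ∈ X) : X = N ⊓ H ∨ X = N := by
  let Y : Subgroup G :=
    { carrier := {g | ∃ x ∈ X, ∃ h ∈ H, g = x * h}
      mul_mem' := by
        rintro _ _ ⟨x, hx, h, hh, rfl⟩ ⟨x', hx', h', hh', rfl⟩
        exact ⟨x * (h * x' * h⁻¹), X.mul_mem hx (hinv h hh x' hx'), h * h', H.mul_mem hh hh', by group⟩
      one_mem' := ⟨1, X.one_mem, 1, H.one_mem, by simp⟩
      inv_mem' := by
        rintro _ ⟨x, hx, h, hh, rfl⟩
        refine ⟨h⁻¹ * x⁻¹ * h, ?_, h⁻¹, H.inv_mem hh, by group⟩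
        have := hinv h⁻¹ (H.inv_mem hh) x⁻¹ (X.inv_mem hx)
        rwa [inv_inv] at this }
  have hHY : H ≤ Y := fun h hh => ⟨1, X.one_mem, h, hh, by simp⟩
  have hXY : X ≤ Y := fun x hx => ⟨x, hx, 1, H.one_mem, by simp⟩
  rcases hH.le_iff.mp hHY with h | h
  · right
    refine le_antisymm hXN (fun n hn => ?_)
    have : n ∈ Y := by rw [h]; trivial
    obtain ⟨x, hx, h', hh', rfl⟩ := this
    have h1 : h' ∈ N := by
      have := N.mul_mem (N.inv_mem (hXN hx)) hn
      rwa [inv_mul_cancel_left] at this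
    exact X.mul_mem hx (hHX ⟨h1, hh'⟩)
  · left
    refine le_antisymm (le_inf hXN ?_) hHX
    rw [← h]; exact hXY

section setup
variable {k : ℕ} {T : Type} [Group T] [Finite T] [IsSimpleGroup T] (hT : ¬ IsMulCommutative T) (N : Subgroup G) [N.Normal] (e : N ≃* (Fin k → T))

/-- conjugation in coordinates -/
noncomputable def cj (g : G) : (Fin k → T) ≃* (Fin k → T) := e.symm.trans ((MulAut.conjNormal g : N ≃* N).trans e)

/-- element with given coordinates -/
def E (x : Fin k → T) : G := ((e.symm x : N) : G)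

omit [Finite G] [Finite T] [IsSimpleGroup T] in
theorem conj_E (g : G) (x : Fin k → T) : g * E N e x * g⁻¹ = E N e (cj N e g x) := by
  simp [E, cj]

omit [Finite G] [Finite T] [IsSimpleGroup T] [N.Normal] in
theorem E_mul (x y : Fin k → T) : E N e (x * y) = E N e x * E N e y := by simp [E]

omit [Finite G] [Finite T] [IsSimpleGroup T] [N.Normal] in
theorem E_inv (x : Fin k → T) : E N e x⁻¹ = (E N e x)⁻¹ := by simp [E]

omit [Finite G] [Finite T] [IsSimpleGroup T] [N.Normal] in
theorem E_mem (x : Fin k → T) : E N e x ∈ N := (e.symm x).2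

omit [Finite G] [Finite T] [IsSimpleGroup T] [N.Normal] in
theorem E_surj {n : G} (hn : n ∈ N) : ∃ x, E N e x = n := ⟨e ⟨n, hn⟩, by simp [E]⟩

omit [Finite G] [Finite T] [IsSimpleGroup T] [N.Normal] in
theorem E_one : E N e 1 = 1 := by simp [E]

omit [Finite G] [Finite T] [IsSimpleGroup T] [N.Normal] in
theorem E_inj {x y : Fin k → T} (h : E N e x = E N e y) : x = y := e.symm.injective (Subtype.ext h)

omit [Finite G] in
include hT in
theorem exists_pi : ∃ π : G →* Equiv.Perm (Fin k), ∀ g, NF (cj N e g) (π g) := by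
  choose π hπ using fun g => exists_NF hT (cj N e g)
  refine ⟨MonoidHom.mk' π ?_, hπ⟩
  intro g h
  refine NF_unique (hπ (g * h)) ?_
  have h1 : cj N e (g * h) = (cj N e h).trans (cj N e g) := by
    ext1 x
    apply E_inj N e
    rw [← conj_E, MulEquiv.trans_apply, ← conj_E, ← conj_E]; group
  rw [h1]
  exact (hπ h).trans (hπ g)

omit [Finite G] [Finite T] in
theorem pi_N (π : G →* Equiv.Perm (Fin k)) (hπ : ∀ g, NF (cj N e g) (π g)) {n : G} (hn : n ∈ N) : π n = 1 := by
  refine NF_unique (hπ n) ?_
  obtain ⟨y, rfl⟩ := E_surj N e hn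
  have h1 : cj N e (E N e y) = MulAut.conj y := by
    ext1 x
    apply E_inj N e
    rw [← conj_E, ← E_inv, ← E_mul, ← E_mul]; simp
  rw [h1]
  exact NF_inner y

omit [Finite G] [Finite T] in
theorem pi_trans (hN : IsMinNormal N) (π : G →* Equiv.Perm (Fin k)) (hπ : ∀ g, NF (cj N e g) (π g)) (i j : Fin k) : ∃ g, π g i = j := by
  classical
  let S : Subgroup G :=
    { carrier := {n | ∃ x, E N e x = n ∧ ∀ l, (¬ ∃ g, π g i = l) → x l = 1}
      mul_mem' := by
        rintro _ _ ⟨x, rfl, hx⟩ ⟨y, rfl, hy⟩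
        exact ⟨x * y, E_mul N e x y, fun l hl => by rw [Pi.mul_apply, hx l hl, hy l hl, one_mul]⟩
      one_mem' := ⟨1, E_one N e, fun _ _ => rfl⟩
      inv_mem' := by
        rintro _ ⟨x, rfl, hx⟩
        exact ⟨x⁻¹, E_inv N e x, fun l hl => by rw [Pi.inv_apply, hx l hl, inv_one]⟩ }
  have hSn : S.Normal := by
    constructor
    rintro _ ⟨x, rfl, hx⟩ g
    refine ⟨cj N e g x, (conj_E N e g x).symm, fun l hl => ?_⟩
    obtain ⟨ψ, _, hψ⟩ := hπ g ((π g)⁻¹ l)
    have h1 : π g ((π g)⁻¹ l) = l := by simp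
    rw [h1] at hψ
    rw [hψ, hx, map_one]
    rintro ⟨g', hg'⟩
    apply hl
    refine ⟨g * g', ?_⟩
    rw [map_mul, Equiv.Perm.mul_apply, hg', h1]
  have hSN : S ≤ N := by
    rintro _ ⟨x, rfl, _⟩
    exact E_mem N e x
  obtain ⟨t₀, ht₀⟩ := exists_ne (1 : T)
  have hi : E N e (Pi.mulSingle i t₀) ∈ S := by
    refine ⟨_, rfl, fun l hl => ?_⟩
    rw [Pi.mulSingle_eq_of_ne]
    rintro rfl
    exact hl ⟨1, by simp⟩
  rcases hN.2.2 S hSn hSN with h | h
  · exfalso
    rw [h, Subgroup.mem_bot, ← E_one N e] at hi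
    have := congrFun (E_inj N e hi) i
    rw [Pi.mulSingle_eq_same] at this
    exact ht₀ this
  · by_contra hcon
    have h1 : E N e (Pi.mulSingle j t₀) ∈ S := by rw [h]; exact E_mem N e _
    obtain ⟨x, hx, hxs⟩ := h1
    have h2 := E_inj N e hx
    have h3 := hxs j hcon
    rw [h2, Pi.mulSingle_eq_same] at h3
    exact ht₀ h3

/-- elements of orders `1, p, q` -/
theorem exists_orders {T : Type} [Group T] [Finite T] [IsSimpleGroup T] (hT : ¬ IsMulCommutative T) : ∃ w : Fin 3 → T, ∀ a b, orderOf (w a) = orderOf (w b) → a = b := by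
  have hcard : 1 < Nat.card T := Finite.one_lt_card_iff_nontrivial.mpr inferInstance
  obtain ⟨p, hp, hpc⟩ := Nat.exists_prime_and_dvd hcard.ne'
  haveI := Fact.mk hp
  have h1 := CfsgLib.H14MinNorm.not_pgroup_of_simple (S := T) hT p
  -- another prime
  have h2 : ∃ q, q.Prime ∧ q ∣ Nat.card T ∧ q ≠ p := by
    by_contra hcon
    push Not at hcon
    apply h1
    rw [IsPGroup.iff_card]
    exact ⟨_, Nat.eq_prime_pow_of_unique_prime_dvd Nat.card_pos.ne' (fun {d} hd hdc => hcon d hd hdc)⟩
  obtain ⟨q, hq, hqc, hqp⟩ := h2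
  haveI := Fact.mk hq
  obtain ⟨a, ha⟩ := exists_prime_orderOf_dvd_card' p hpc
  obtain ⟨b, hb⟩ := exists_prime_orderOf_dvd_card' q hqc
  refine ⟨![1, a, b], ?_⟩
  have e1 := hp.one_lt.ne'
  have e2 := hq.one_lt.ne'
  intro x y h
  fin_cases x <;> fin_cases y <;> simp [ha, hb] at h ⊢
  · exact e1 h.symm
  · exact e2 h.symm
  · exact e1 h
  · exact hqp h.symm
  · exact e2 h
  · exact hqp h

end setup

theorem nonabelian [IsPretransitive G Ω] (ih : IH (Nat.card G)) (α : Ω) (hα : IsCoatom (stabilizer G α)) (N : Subgroup G)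
    (hN : IsMinNormal N) (hab : ¬ IsMulCommutative N) : 3 * cl G + 4 ≤ 4 * Nat.card Ω := by
  classical
  haveI hNn : N.Normal := hN.1
  have hn2 : 2 ≤ Nat.card Ω := by
    by_contra hcon
    apply hα.1
    have h1 : (stabilizer G α).index = Nat.card (orbit G α) := by rw [index_stabilizer]; rfl
    have h2 : Nat.card (orbit G α) ≤ Nat.card Ω := Finite.card_subtype_le _
    have h3 : (stabilizer G α).index ≠ 0 := Subgroup.index_ne_zero_of_finite
    rw [← Subgroup.index_eq_one]; omega
  haveI : Nontrivial Ω := Finite.one_lt_card_iff_nontrivial.mp (by omega)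
  have hprim : IsPreprimitive G Ω := (isCoatom_stabilizer_iff_preprimitive G α).mp hα
  have htr : IsPretransitive N Ω := normal_transitive hprim N hN.2.1
  obtain ⟨T, hTg, k, hTs, hk, ⟨e⟩⟩ := Cfsg.Agent.S0721.result N hN.2.1 (fun M' h1 h2 => hN.2.2 M' h1 h2)
  haveI : Nonempty (Fin k) := ⟨⟨0, hk⟩⟩
  haveI : Finite (Fin k → T) := Finite.of_equiv N e.toEquiv
  haveI : Finite T := Finite.of_injective (fun t => (fun _ : Fin k => t)) (fun a b h => congrFun h ⟨0, hk⟩)
  have hT : ¬ IsMulCommutative T := by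
    intro hc
    apply hab
    refine ⟨⟨fun a b => ?_⟩⟩
    apply e.injective
    rw [map_mul, map_mul]
    funext i
    exact hc.is_comm.comm _ _
  set H := stabilizer G α with hH
  have hfac := factorize α N htr
  have hHlt : Nat.card H < Nat.card G := by
    by_contra hcon
    push Not at hcon
    exact hα.1 (Subgroup.eq_top_of_le_card _ hcon)
  obtain ⟨π, hπ⟩ := exists_pi hT N e
  have hπN : ∀ n ∈ N, π n = 1 := fun n hn => pi_N N e π hπ hn
  set K := π.ker with hKdef
  set A := K ⊓ H with hA
  have hNK : N ≤ K := fun n hn => hπN n hn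
  -- M
  let M : Subgroup (Fin k → T) := H.comap (N.subtype.comp e.symm.toMonoidHom)
  have hM : ∀ x, x ∈ M ↔ E N e x ∈ H := fun x => Iff.rfl
  have hclM : cl (N ⊓ H : Subgroup G) = cl M := by
    apply cl_congr
    exact {
      toFun := fun x => ⟨e ⟨x.1, x.2.1⟩, by rw [hM]; simp only [E, MulEquiv.symm_apply_apply]; exact x.2.2⟩
      invFun := fun x => ⟨E N e x.1, E_mem N e _, x.2⟩
      left_inv := fun x => by apply Subtype.ext; simp [E]
      right_inv := fun x => by apply Subtype.ext; simp [E]
      map_mul' := fun x y => by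
        apply Subtype.ext
        show e ⟨(x * y : (N ⊓ H : Subgroup G)).1, _⟩ = e ⟨x.1, _⟩ * e ⟨y.1, _⟩
        rw [← map_mul]; rfl }
  obtain ⟨I, hI, hmax⟩ := exists_max M
  have hge := chain_ge M I hI hmax
  have hclN : cl N ≤ k := by rw [cl_congr e]; exact cl_pow k
  by_cases hI0 : I = ∅
  · have hkey := cl_key N H hfac
    have hgood : Good H Ω := ih H Ω hHlt
    rw [Good] at hgood
    have := two_le_orb α H le_rfl hn2
    rw [hI0, Finset.card_empty] at hge
    omega
  · have hIpos : 1 ≤ I.card := Finset.card_pos.mpr (Finset.nonempty_iff_ne_empty.mpr hI0)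
    have hk2 : k ≤ 2 * I.card := by
      by_cases hMbot : M = ⊥
      · have : I = Finset.univ := by
          rw [Finset.eq_univ_iff_forall]
          intro j
          by_contra hj
          obtain ⟨y, hy, hy1, _⟩ := hmax j hj
          rw [hMbot, Subgroup.mem_bot] at hy
          exact hy1 hy
        rw [this, Finset.card_univ, Fintype.card_fin]; omega
      · -- M meets no factor
        have hHM : ∀ h ∈ H, ∀ x ∈ M, cj N e h x ∈ M := by
          intro h hh x hx
          rw [hM, ← conj_E]
          exact H.mul_mem (H.mul_mem hh hx) (H.inv_mem hh)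
        have htrH : ∀ i j, ∃ h ∈ H, π h i = j := by
          intro i j
          obtain ⟨g, hg⟩ := pi_trans N e hN π hπ i j
          obtain ⟨n, hn, a, ha, rfl⟩ := hfac g
          refine ⟨a, ha, ?_⟩
          rw [map_mul, hπN n hn, one_mul] at hg
          exact hg
        obtain ⟨i₀, hi₀⟩ := Finset.nonempty_iff_ne_empty.mpr hI0
        have h1 : ∀ j, ∀ x ∈ M, (∀ l, l ≠ j → x l = 1) → x = 1 := by
          intro j x hx hxs
          obtain ⟨h, hh, hhj⟩ := htrH j i₀
          have h2 : cj N e h x = 1 := by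
            apply hI _ (hHM h hh x hx)
            intro l hl
            obtain ⟨ψ, _, hψ⟩ := hπ h ((π h)⁻¹ l)
            have h3 : π h ((π h)⁻¹ l) = l := by simp
            rw [h3] at hψ
            rw [hψ, hxs, map_one]
            intro h4
            rw [h4, hhj] at h3
            exact hl (h3 ▸ hi₀)
          exact (map_eq_one_iff _ (cj N e h).injective).mp h2
        -- full projections
        have hfull : ∀ i t, ∃ x ∈ M, x i = t := by
          let X : Subgroup G :=
            { carrier := {n | ∃ x, E N e x = n ∧ ∀ i, ∃ m ∈ M, m i = x i}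
              mul_mem' := by
                rintro _ _ ⟨x, rfl, hx⟩ ⟨y, rfl, hy⟩
                refine ⟨x * y, E_mul N e x y, fun i => ?_⟩
                obtain ⟨m, hm, hmi⟩ := hx i
                obtain ⟨m', hm', hmi'⟩ := hy i
                exact ⟨m * m', M.mul_mem hm hm', by rw [Pi.mul_apply, hmi, hmi']; rfl⟩
              one_mem' := ⟨1, E_one N e, fun i => ⟨1, M.one_mem, rfl⟩⟩
              inv_mem' := by
                rintro _ ⟨x, rfl, hx⟩
                refine ⟨x⁻¹, E_inv N e x, fun i => ?_⟩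
                obtain ⟨m, hm, hmi⟩ := hx i
                exact ⟨m⁻¹, M.inv_mem hm, by rw [Pi.inv_apply, hmi]; rfl⟩ }
          have hdich := inv_dichotomy H N X hα (by rintro _ ⟨x, rfl, _⟩; exact E_mem N e x) (by
            rintro n ⟨hn, hn'⟩
            obtain ⟨x, rfl⟩ := E_surj N e hn
            exact ⟨x, rfl, fun i => ⟨x, hn', rfl⟩⟩) (by
            rintro h hh _ ⟨x, rfl, hx⟩
            refine ⟨cj N e h x, (conj_E N e h x).symm, fun i => ?_⟩
            obtain ⟨ψ, _, hψ⟩ := hπ h ((π h)⁻¹ i)
            have h3 : π h ((π h)⁻¹ i) = i := by simp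
            rw [h3] at hψ
            obtain ⟨m, hm, hmi⟩ := hx ((π h)⁻¹ i)
            exact ⟨cj N e h m, hHM h hh m hm, by rw [hψ, hψ, hmi]⟩)
          rcases hdich with hX | hX
          · exfalso
            apply hMbot
            rw [eq_bot_iff]
            intro m hm
            rw [Subgroup.mem_bot]
            funext i
            have h2 : (Pi.mulSingle i (m i) : Fin k → T) ∈ M := by
              rw [hM]
              have : E N e (Pi.mulSingle i (m i)) ∈ X := by
                refine ⟨_, rfl, fun l => ?_⟩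
                by_cases hl : l = i
                · subst hl; exact ⟨m, hm, by simp⟩
                · exact ⟨1, M.one_mem, by rw [Pi.mulSingle_eq_of_ne hl]; rfl⟩
              rw [hX] at this
              exact this.2
            have h3 := h1 i _ h2 (fun l hl => Pi.mulSingle_eq_of_ne hl _)
            have h4 := congrFun h3 i
            rw [Pi.mulSingle_eq_same] at h4
            exact h4
          · intro i t
            have : E N e (Pi.mulSingle i t) ∈ X := by rw [hX]; exact E_mem N e _
            obtain ⟨x, hx, hx'⟩ := this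
            obtain ⟨m, hm, hmi⟩ := hx' i
            refine ⟨m, hm, ?_⟩
            rw [hmi, E_inj N e hx, Pi.mulSingle_eq_same]
        exact le_two_mul hT M I hI hmax hfull h1
    -- the quotient
    have hclG := cl_eq π.rangeRestrict π.rangeRestrict_surjective
    have hker : cl π.rangeRestrict.ker = cl K := by rw [MonoidHom.ker_rangeRestrict]
    have hKne : K ≠ ⊥ := fun h => hN.2.1 (le_bot_iff.mp (h ▸ hNK))
    have hRlt : Nat.card π.range < Nat.card G := by
      have h1 : Nat.card K * K.index = Nat.card G := K.card_mul_index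
      have h2 : K.index = Nat.card π.range := by rw [hKdef]; exact Subgroup.index_ker π
      have h3 : 1 < Nat.card K := by
        by_contra hcon
        push Not at hcon
        exact hKne (Subgroup.eq_bot_of_card_le _ hcon)
      have h4 : 0 < Nat.card π.range := Nat.card_pos
      nlinarith
    have hgoodR : Good π.range (Fin k) := ih π.range (Fin k) hRlt
    rw [Good, Nat.card_fin] at hgoodR
    have horbR : 1 ≤ orb π.range (Fin k) := orb_pos
    -- the kernel
    have hAlt : Nat.card A < Nat.card G := lt_of_le_of_lt (Subgroup.card_le_of_le inf_le_right) hHlt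
    have hgoodA : Good A Ω := ih A Ω hAlt
    rw [Good] at hgoodA
    have hkey := cl_key' N A K hNK inf_le_left (fun x _ n hn => hNn.conj_mem n hn x) (by
      intro g hg
      obtain ⟨n, hn, a, ha, rfl⟩ := hfac g
      refine ⟨n, hn, a, ⟨?_, ha⟩, rfl⟩
      have := K.mul_mem (K.inv_mem (hNK hn)) hg
      rwa [inv_mul_cancel_left] at this)
    have hNA : N ⊓ A = N ⊓ H := by
      rw [hA, ← inf_assoc, inf_eq_left.mpr hNK]
    rw [hNA, hclM] at hkey
    -- number of orbits of A
    have horbA : 3 ^ I.card ≤ orb A Ω := by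
      obtain ⟨w, hw⟩ := exists_orders hT
      let xx : ({i // i ∈ I} → Fin 3) → (Fin k → T) := fun c j => if h : j ∈ I then w (c ⟨j, h⟩) else 1
      have h := le_orb_of_inj (G := A) (Ω := Ω) (fun c : {i // i ∈ I} → Fin 3 => E N e (xx c) • α) (by
        intro c c' g hg
        have hgα : (g : G) • α = α := g.2.2
        have hg' : (g : G) • (E N e (xx c) • α) = E N e (xx c') • α := hg
        have h1 : E N e (cj N e g (xx c)) • α = E N e (xx c') • α := by
          rw [← conj_E, mul_smul, mul_smul]
          have : (g : G)⁻¹ • α = α := by rw [inv_smul_eq_iff, hgα]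
          rw [this, hg']
        have hsupp : ∀ c j, j ∉ I → xx c j = 1 := fun c j hj => dif_neg hj
        have hπg : π g = 1 := g.2.1
        have h2 : (xx c')⁻¹ * cj N e g (xx c) = 1 := by
          apply hI
          · rw [hM, E_mul, E_inv, hH, mem_stabilizer_iff, mul_smul, h1, inv_smul_smul]
          · intro j hj
            obtain ⟨ψ, _, hψ⟩ := hπ g j
            rw [hπg, Equiv.Perm.one_apply] at hψ
            rw [Pi.mul_apply, Pi.inv_apply, hψ, hsupp c' j hj, hsupp c j hj, map_one]; simp
        rw [inv_mul_eq_one] at h2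
        funext i
        apply hw
        obtain ⟨ψ, hψi, hψ⟩ := hπ g i.1
        rw [hπg, Equiv.Perm.one_apply] at hψ
        have h3 : xx c i.1 = w (c i) := dif_pos i.2
        have h4 : xx c' i.1 = w (c' i) := dif_pos i.2
        rw [← h3, ← h4, h2, hψ, orderOf_injective ψ hψi])
      rw [Nat.card_fun] at h
      simpa using h
    have hnum := num3 I.card hIpos
    change cl G = cl π.rangeRestrict.ker + cl π.range at hclG
    omega

theorem primitive_bound (G : Type) [Group G] [Finite G] (Ω : Type) [Finite Ω] [MulAction G Ω] [FaithfulSMul G Ω] [IsPretransitive G Ω]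
    (ih : IH (Nat.card G)) (α : Ω) (hα : IsCoatom (stabilizer G α)) : 3 * cl G + 4 ≤ 4 * Nat.card Ω := by
  haveI : Nontrivial G := by
    by_contra hcon
    rw [not_nontrivial_iff_subsingleton] at hcon
    exact hα.1 (Subsingleton.elim _ _)
  obtain ⟨N, hN, _⟩ := exists_isMinNormal_le (G := G) ⊤ top_ne_bot
  by_cases hab : IsMulCommutative N
  · exact affine ih α hα N hN hab
  · exact nonabelian ih α hα N hN hab

/-- composition length of a permutation group -/
theorem bound (G : Type) [Group G] [Finite G] (Ω : Type) [Finite Ω] [MulAction G Ω] [FaithfulSMul G Ω] : 3 * cl G + 4 * orb G Ω ≤ 4 * Nat.card Ω :=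
  reduce primitive_bound (Nat.card G + 1) G Ω (Nat.lt_succ_self _)

end CfsgLib.CL29
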