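import Mathlib

/-! Structure theorem for an operator on a finite-dimensional space: decomposition into primary cyclic pieces. -/

namespace CfsgLib.Str

open Module Polynomial

universe u v

variable {F : Type u} {V : Type v} [Field F] [AddCommGroup V] [Module F V]

theorem X_smul_eq (f : F[X]) (w : F[X] ⧸ (Ideal.span {f} : Ideal F[X])) :
    ((X : F[X]) • w) = (AdjoinRoot.root f * (show AdjoinRoot f from w) : AdjoinRoot f) := by
  obtain ⟨g, rfl⟩ := Ideal.Quotient.mk_surjective w
  rfl

/-- The primary decomposition. -/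
theorem exists_decomp [FiniteDimensional F V] (T : End F V) : ∃ (ι : Type u) (_ : Fintype ι) (p : ι → F[X]) (e : ι → ℕ),
    (∀ i, Irreducible (p i)) ∧ (∀ i, (p i).Monic) ∧ (∀ i, 0 < e i) ∧
    ∃ φ : V ≃ₗ[F] (∀ i, AdjoinRoot (p i ^ e i)), ∀ v i, φ (T v) i = AdjoinRoot.root (p i ^ e i) * φ v i := by
  classical
  obtain ⟨ι, hι, p, hp, e, ⟨E⟩⟩ := Module.equiv_directSum_of_isTorsion (AEval.isTorsion_of_finiteDimensional F V T)
  let p' : ι → F[X] := fun i => normalize (p i)
  have hassoc : ∀ i, Associated (p i) (p' i) := fun i => associated_normalize (p i)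
  have hspan : ∀ i, (F[X] ∙ (p i ^ e i) : Submodule F[X] F[X]) = (Ideal.span {p' i ^ e i} : Ideal F[X]) := by
    intro i
    exact Ideal.span_singleton_eq_span_singleton.mpr ((hassoc i).pow_pow)
  let E1 : (DirectSum ι (fun i => F[X] ⧸ (F[X] ∙ (p i ^ e i)))) ≃ₗ[F[X]] (∀ i, F[X] ⧸ (F[X] ∙ (p i ^ e i))) :=
    DirectSum.linearEquivFunOnFintype F[X] ι _
  let E2 : (∀ i, F[X] ⧸ (F[X] ∙ (p i ^ e i))) ≃ₗ[F[X]] (∀ i, F[X] ⧸ (Ideal.span {p' i ^ e i} : Ideal F[X])) :=
    LinearEquiv.piCongrRight (fun i => Submodule.quotEquivOfEq _ _ (hspan i))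
  let E3 : AEval F V T ≃ₗ[F[X]] (∀ i, F[X] ⧸ (Ideal.span {p' i ^ e i} : Ideal F[X])) := (E.trans E1).trans E2
  let E4 : V ≃ₗ[F] (∀ i, F[X] ⧸ (Ideal.span {p' i ^ e i} : Ideal F[X])) := (AEval.of F V T).trans (E3.restrictScalars F)
  have hE4 : ∀ v i, E4 (T v) i = (X : F[X]) • E4 v i := by
    intro v i
    show E3 (AEval.of F V T (T • v)) i = X • E3 (AEval.of F V T v) i
    rw [← AEval.X_smul_of, map_smul]
    rfl
  -- restrict to e i ≠ 0
  let κ := {i : ι // e i ≠ 0}
  let R : (∀ i, F[X] ⧸ (Ideal.span {p' i ^ e i} : Ideal F[X])) →ₗ[F] (∀ k : κ, AdjoinRoot (p' k.1 ^ e k.1)) :=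
    { toFun := fun f k => f k.1
      map_add' := fun _ _ => rfl
      map_smul' := fun _ _ => rfl }
  have hR : Function.Bijective R := by
    constructor
    · intro f g hfg
      funext i
      by_cases hi : e i = 0
      · have : Subsingleton (F[X] ⧸ (Ideal.span {p' i ^ e i} : Ideal F[X])) := by
          rw [Ideal.Quotient.subsingleton_iff, hi, pow_zero, Ideal.span_singleton_one]
        exact Subsingleton.elim _ _
      · exact congrFun hfg ⟨i, hi⟩
    · intro f
      refine ⟨fun i => if hi : e i ≠ 0 then f ⟨i, hi⟩ else 0, ?_⟩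
      funext k
      show (if hi : e k.1 ≠ 0 then f ⟨k.1, hi⟩ else 0) = f k
      rw [dif_pos k.2]
  refine ⟨κ, inferInstance, fun k => p' k.1, fun k => e k.1, fun k => (hassoc k.1).irreducible (hp k.1),
    fun k => Polynomial.monic_normalize (hp k.1).ne_zero, fun k => Nat.pos_of_ne_zero k.2, E4.trans (LinearEquiv.ofBijective R hR), ?_⟩
  intro v k
  exact (hE4 v k.1).trans (X_smul_eq _ _)

section func

variable {g : F[X]} (hg : g.Monic)

/-- the top coefficient functional on `F[X]/(g)` -/
noncomputable def topCoeff : AdjoinRoot g →ₗ[F] F := (lcoeff F (g.natDegree - 1)).comp (AdjoinRoot.modByMonicHom hg)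

theorem topCoeff_nondeg (u : AdjoinRoot g) (hu : ∀ v, topCoeff hg (u * v) = 0) : u = 0 := by
  by_contra hne
  set r := AdjoinRoot.modByMonicHom hg u with hr
  have hmk : AdjoinRoot.mk g r = u := AdjoinRoot.mk_leftInverse hg u
  have hr0 : r ≠ 0 := by
    intro h; rw [h, map_zero] at hmk; exact hne hmk.symm
  have hdeg : r.degree < g.degree := by
    obtain ⟨f, rfl⟩ := AdjoinRoot.mk_surjective u
    rw [hr, AdjoinRoot.modByMonicHom_mk]
    exact degree_modByMonic_lt f hg
  have hnd : r.natDegree < g.natDegree := natDegree_lt_natDegree hr0 hdeg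
  have h1 := hu (AdjoinRoot.mk g (X ^ (g.natDegree - 1 - r.natDegree)))
  rw [← hmk, ← map_mul] at h1
  unfold topCoeff at h1
  rw [LinearMap.comp_apply, AdjoinRoot.modByMonicHom_mk] at h1
  have hd2 : (r * X ^ (g.natDegree - 1 - r.natDegree)).natDegree = g.natDegree - 1 := by
    rw [natDegree_mul_X_pow _ hr0]; omega
  have hd3 : (r * X ^ (g.natDegree - 1 - r.natDegree)).degree < g.degree := by
    have h0 : r * X ^ (g.natDegree - 1 - r.natDegree) ≠ 0 := mul_ne_zero hr0 (pow_ne_zero _ X_ne_zero)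
    rw [degree_eq_natDegree h0, degree_eq_natDegree hg.ne_zero, hd2]
    exact_mod_cast (by omega : g.natDegree - 1 < g.natDegree)
  rw [(modByMonic_eq_self_iff hg).mpr hd3, lcoeff_apply] at h1
  have h2 : (r * X ^ (g.natDegree - 1 - r.natDegree)).coeff (g.natDegree - 1) = r.leadingCoeff := by
    have h3 : (r * X ^ (g.natDegree - 1 - r.natDegree)).leadingCoeff = r.leadingCoeff := by
      rw [leadingCoeff_mul, leadingCoeff_X_pow, mul_one]
    rw [← h3, leadingCoeff, hd2]
  rw [h2] at h1
  exact hr0 (leadingCoeff_eq_zero.mp h1)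

end func

/-- Every operator is self-adjoint for a non-degenerate symmetric bilinear form. -/
theorem exists_symm_form [FiniteDimensional F V] (T : End F V) : ∃ B : LinearMap.BilinForm F V, B.Nondegenerate ∧ (∀ u v, B u v = B v u) ∧
    ∀ u v, B (T u) v = B u (T v) := by
  classical
  obtain ⟨ι, hι, p, e, hp, hm, he, φ, hφ⟩ := exists_decomp T
  have hg : ∀ i, (p i ^ e i).Monic := fun i => (hm i).pow _
  let B : LinearMap.BilinForm F V := LinearMap.mk₂ F (fun u v => ∑ i, topCoeff (hg i) (φ u i * φ v i))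
    (fun u u' v => by
      rw [← Finset.sum_add_distrib]
      refine Finset.sum_congr rfl fun i _ => ?_
      rw [map_add, Pi.add_apply, add_mul, map_add])
    (fun c u v => by
      rw [smul_eq_mul, Finset.mul_sum]
      refine Finset.sum_congr rfl fun i _ => ?_
      rw [map_smul, Pi.smul_apply, smul_mul_assoc, map_smul, smul_eq_mul])
    (fun u v v' => by
      rw [← Finset.sum_add_distrib]
      refine Finset.sum_congr rfl fun i _ => ?_
      rw [map_add, Pi.add_apply, mul_add, map_add])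
    (fun c u v => by
      rw [smul_eq_mul, Finset.mul_sum]
      refine Finset.sum_congr rfl fun i _ => ?_
      rw [map_smul, Pi.smul_apply, mul_smul_comm, map_smul, smul_eq_mul])
  have hB : ∀ u v, B u v = ∑ i, topCoeff (hg i) (φ u i * φ v i) := fun u v => rfl
  have hsymm : ∀ u v, B u v = B v u := by
    intro u v
    rw [hB, hB]
    refine Finset.sum_congr rfl fun i _ => ?_
    rw [mul_comm]
  have hl : ∀ u, (∀ v, B u v = 0) → u = 0 := by
    intro u hu
    apply φ.injective
    rw [map_zero]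
    funext i
    apply topCoeff_nondeg (hg i)
    intro w
    have h1 := hu (φ.symm (Pi.single i w))
    rw [hB, LinearEquiv.apply_symm_apply, Finset.sum_eq_single i] at h1
    · rw [Pi.single_eq_same] at h1; exact h1
    · intro j _ hj
      rw [Pi.single_eq_of_ne hj, mul_zero, map_zero]
    · intro hh; exact absurd (Finset.mem_univ i) hh
  refine ⟨B, ⟨fun u hu => hl u hu, fun u hu => hl u (fun v => by rw [hsymm]; exact hu v)⟩, hsymm, ?_⟩
  intro u v
  rw [hB, hB]
  refine Finset.sum_congr rfl fun i _ => ?_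
  rw [hφ, hφ]
  congr 1
  ring

end CfsgLib.Str
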