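import Mathlib
import Cfsg.Agent.LibStrH13

/-! Determinants of the centraliser of a semisimple element (seat helper13). -/

namespace CfsgLib.SS

open Module Polynomial

universe u

/-- determinant of an endomorphism supported on one block -/
theorem det_update {F : Type*} [Field F] {ι : Type*} [Fintype ι] [DecidableEq ι] (W : ι → Type*) [∀ i, AddCommGroup (W i)] [∀ i, Module F (W i)]
    [∀ i, FiniteDimensional F (W i)] (i : ι) (g : End F (W i)) :
    LinearMap.det (LinearMap.pi fun j => ((Function.update (fun j => (1 : End F (W j))) i g : ∀ j, End F (W j)) j).comp (LinearMap.proj j) : (∀ i, W i) →ₗ[F] (∀ i, W i)) = LinearMap.det g := by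
  let e : (∀ j, W j) ≃ₗ[F] W i × (∀ j : {j // j ≠ i}, W j) :=
    { Equiv.piSplitAt i W with
      map_add' := fun _ _ => rfl
      map_smul' := fun _ _ => rfl }
  have he : ∀ v : (∀ j, W j), e v = (v i, fun j : {j // j ≠ i} => v j.1) := fun v => rfl
  have h1 : (e : (∀ j, W j) →ₗ[F] W i × (∀ j : {j // j ≠ i}, W j)) ∘ₗ (LinearMap.pi fun j => ((Function.update (fun j => (1 : End F (W j))) i g : ∀ j, End F (W j)) j).comp (LinearMap.proj j) : (∀ i, W i) →ₗ[F] (∀ i, W i)) ∘ₗ (e.symm : (W i × (∀ j : {j // j ≠ i}, W j)) →ₗ[F] (∀ j, W j)) =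
      LinearMap.prodMap g 1 := by
    apply LinearMap.ext
    intro v
    obtain ⟨v, rfl⟩ := e.surjective v
    show e (LinearMap.pi (fun j => ((Function.update (fun j => (1 : End F (W j))) i g : ∀ j, End F (W j)) j).comp (LinearMap.proj j)) (e.symm (e v))) = (g (e v).1, (e v).2)
    rw [LinearEquiv.symm_apply_apply, he, he]
    apply Prod.ext
    · show ((Function.update (fun j => (1 : End F (W j))) i g : ∀ j, End F (W j)) i) (v i) = _
      rw [Function.update_self]
    · funext j
      show ((Function.update (fun j => (1 : End F (W j))) i g : ∀ j, End F (W j)) j.1) (v j.1) = _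
      rw [Function.update_of_ne j.2]; rfl
  rw [← LinearMap.det_conj _ e, h1, LinearMap.det_prodMap, map_one, mul_one]

variable {F : Type u} {V : Type u} [Field F] [AddCommGroup V] [Module F V]

/-- the exponents are one for a semisimple element -/
theorem exp_eq_one {ι : Type*} {p : ι → F[X]} {e : ι → ℕ} (hp : ∀ i, Irreducible (p i)) (he : ∀ i, 0 < e i) {T : End F V}
    (φ : V ≃ₗ[F] (∀ i, AdjoinRoot (p i ^ e i))) (hφ : ∀ v i, φ (T v) i = AdjoinRoot.root (p i ^ e i) * φ v i) {N : ℕ} (hT : T ^ N = 1) (i : ι) :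
    p i ^ e i ∣ (X ^ N - 1 : F[X]) := by
  classical
  have h1 : ∀ (k : ℕ) v, φ ((T ^ k) v) i = AdjoinRoot.root (p i ^ e i) ^ k * φ v i := by
    intro k
    induction k with
    | zero => intro v; simp
    | succ k ih => intro v; rw [pow_succ', Module.End.mul_apply, hφ, ih, pow_succ', mul_assoc]
  obtain ⟨v, hv⟩ := φ.surjective 1
  have h2 := h1 N v
  rw [hT, Module.End.one_apply, hv, Pi.one_apply, mul_one] at h2
  rw [← AdjoinRoot.mk_eq_zero, map_sub, map_pow, AdjoinRoot.mk_X, map_one, ← h2, sub_self]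

theorem exp_eq_one' {p' e : ℕ} {p : F[X]} [CharP F p'] [Fact p'.Prime] (hp : Irreducible p) (he : 0 < e) {N : ℕ} (hN : N.Coprime p') 
    (hd : p ^ e ∣ (X ^ N - 1 : F[X])) : e = 1 := by
  by_contra hne
  have h2 : 2 ≤ e := by omega
  have hsep : (X ^ N - 1 : F[X]).Separable := by
    rw [X_pow_sub_one_separable_iff, Ne, CharP.cast_eq_zero_iff F p']
    intro h
    have := Nat.Coprime.eq_one_of_dvd hN.symm h
    exact (Fact.out : p'.Prime).one_lt.ne' this
  have := hsep.squarefree p ((by rw [← pow_two]; exact (pow_dvd_pow p h2).trans hd))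
  exact hp.not_isUnit this

/-- the determinant is onto on the centraliser of a semisimple element -/
theorem exists_det [Finite F] [FiniteDimensional F V] [Nontrivial V] {p' : ℕ} [Fact p'.Prime] [CharP F p'] (T : End F V) {N : ℕ} (hN : N.Coprime p') (hT : T ^ N = 1)
    (a : F) : ∃ z : End F V, Commute z T ∧ LinearMap.det z = a := by
  classical
  obtain ⟨ι, hι, p, e, hirr, hmon, he, φ, hφ⟩ := CfsgLib.Str.exists_decomp T
  have hne : Nonempty ι := by
    by_contra h
    rw [not_nonempty_iff] at h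
    obtain ⟨v, hv⟩ := exists_ne (0 : V)
    exact hv (φ.injective (Subsingleton.elim _ _))
  obtain ⟨i⟩ := hne
  have hei : e i = 1 := exp_eq_one' (p' := p') (hirr i) (he i) hN (exp_eq_one hirr he φ hφ hT i)
  haveI : Module.Finite F (∀ i, AdjoinRoot (p i ^ e i)) := Module.Finite.equiv φ
  haveI hfin : ∀ j, Module.Finite F (AdjoinRoot (p j ^ e j)) := fun j =>
    Module.Finite.of_surjective (LinearMap.proj j : (∀ i, AdjoinRoot (p i ^ e i)) →ₗ[F] AdjoinRoot (p j ^ e j)) (Function.surjective_eval j)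
  haveI : Fact (Irreducible (p i ^ e i)) := ⟨by rw [hei, pow_one]; exact hirr i⟩
  haveI : Finite (AdjoinRoot (p i ^ e i)) := Module.finite_of_finite F
  obtain ⟨u, hu⟩ := FiniteField.norm_surjective F (AdjoinRoot (p i ^ e i)) a
  let f : ∀ j, End F (AdjoinRoot (p j ^ e j)) := Function.update (fun j => 1) i (LinearMap.mulLeft F u)
  let f' : End F (∀ i, AdjoinRoot (p i ^ e i)) := LinearMap.pi fun i => (f i).comp (LinearMap.proj i)
  have hf : ∀ j x, f j (AdjoinRoot.root (p j ^ e j) * x) = AdjoinRoot.root (p j ^ e j) * f j x := by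
    intro j x
    by_cases hj : j = i
    · subst hj
      simp only [f, Function.update_self, LinearMap.mulLeft_apply]
      ring
    · simp only [f, Function.update_of_ne hj, Module.End.one_apply]
  refine ⟨(φ.symm : _ →ₗ[F] V) ∘ₗ f' ∘ₗ (φ : V →ₗ[F] _), ?_, ?_⟩
  · apply LinearMap.ext
    intro v
    apply φ.injective
    funext j
    show φ (φ.symm (f' (φ (T v)))) j = φ (T (φ.symm (f' (φ v)))) j
    rw [hφ, LinearEquiv.apply_symm_apply, LinearEquiv.apply_symm_apply]
    show f j (φ (T v) j) = _ * f j (φ v j)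
    rw [hφ, hf]
  · have h1 := LinearMap.det_conj f' φ.symm
    rw [LinearEquiv.symm_symm] at h1
    have h2 := det_update (fun j => AdjoinRoot (p j ^ e j)) i (LinearMap.mulLeft F u)
    rw [h1, ← hu, Algebra.norm_apply]
    exact h2

end CfsgLib.SS
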