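import Mathlib
import Cfsg.Agent.LibStrH13

/-! Operators up to conjugacy are determined by the dimensions of the kernels of `f(T)^k` (seat helper13). -/

namespace CfsgLib.Typ

open Module Polynomial

universe u v w

section quot
variable {F : Type*} [Field F]

theorem finrank_adjoinRoot {g : F[X]} (hg : g.Monic) : finrank F (AdjoinRoot g) = g.natDegree := by
  rw [(AdjoinRoot.powerBasis' hg).finrank, AdjoinRoot.powerBasis'_dim]

theorem finrank_ker_same {p : F[X]} (hp : p.Monic) (e k : ℕ) :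
    finrank F (LinearMap.ker (LinearMap.mulLeft F (AdjoinRoot.mk (p ^ e) (p ^ k)))) = p.natDegree * min e k := by
  have hd : p ^ (e - k) ∣ p ^ e := pow_dvd_pow p (Nat.sub_le e k)
  haveI : Module.Finite F (AdjoinRoot (p ^ e)) := (AdjoinRoot.powerBasis' (hp.pow e)).finite
  let π : AdjoinRoot (p ^ e) →ₗ[F] AdjoinRoot (p ^ (e - k)) := (AdjoinRoot.algHomOfDvd F (p ^ e) (p ^ (e - k)) hd).toLinearMap
  have hπ : ∀ g, π (AdjoinRoot.mk (p ^ e) g) = AdjoinRoot.mk (p ^ (e - k)) g := by
    intro g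
    show AdjoinRoot.algHomOfDvd F (p ^ e) (p ^ (e - k)) hd (AdjoinRoot.mk (p ^ e) g) = _
    rw [← AdjoinRoot.aeval_eq, ← AdjoinRoot.aeval_eq, ← Polynomial.aeval_algHom_apply, AdjoinRoot.algHomOfDvd_root]
  have hker : LinearMap.ker (LinearMap.mulLeft F (AdjoinRoot.mk (p ^ e) (p ^ k))) = LinearMap.ker π := by
    ext x
    obtain ⟨g, rfl⟩ := AdjoinRoot.mk_surjective x
    rw [LinearMap.mem_ker, LinearMap.mem_ker, LinearMap.mulLeft_apply, hπ, ← map_mul, AdjoinRoot.mk_eq_zero, AdjoinRoot.mk_eq_zero]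
    rcases le_total k e with h | h
    · have h1 : p ^ e = p ^ k * p ^ (e - k) := by rw [← pow_add]; congr 1; omega
      rw [h1]
      exact mul_dvd_mul_iff_left (pow_ne_zero _ hp.ne_zero)
    · constructor
      · intro _
        rw [Nat.sub_eq_zero_of_le h, pow_zero]; exact one_dvd _
      · intro _
        exact (pow_dvd_pow p h).trans (dvd_mul_right _ _)
  have hsurj : Function.Surjective π := by
    intro y
    obtain ⟨g, rfl⟩ := AdjoinRoot.mk_surjective y
    exact ⟨_, hπ g⟩
  have h1 := LinearMap.finrank_range_add_finrank_ker π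
  rw [LinearMap.range_eq_top.2 hsurj, finrank_top, finrank_adjoinRoot (hp.pow _), finrank_adjoinRoot (hp.pow _), hp.natDegree_pow, hp.natDegree_pow] at h1
  rw [hker]
  generalize finrank F (LinearMap.ker π) = K at h1 ⊢
  rw [Nat.sub_mul] at h1
  rcases le_total k e with h | h
  · rw [min_eq_right h]
    have h2 := Nat.mul_le_mul_right p.natDegree h
    rw [mul_comm p.natDegree k]; omega
  · rw [min_eq_left h]
    have h2 := Nat.mul_le_mul_right p.natDegree h
    rw [mul_comm p.natDegree e]; omega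

theorem finrank_ker_ne {p f : F[X]} (hpi : Irreducible p) (hfi : Irreducible f) (hp : p.Monic) (hf : f.Monic) (hne : p ≠ f) (e k : ℕ) :
    finrank F (LinearMap.ker (LinearMap.mulLeft F (AdjoinRoot.mk (p ^ e) (f ^ k)))) = 0 := by
  have hcop : IsCoprime p f := by
    rw [hpi.coprime_iff_not_dvd]
    intro h
    exact hne (eq_of_monic_of_associated hp hf (hpi.associated_of_dvd hfi h))
  obtain ⟨a, b, hab⟩ := hcop.pow (m := e) (n := k)
  have hker : LinearMap.ker (LinearMap.mulLeft F (AdjoinRoot.mk (p ^ e) (f ^ k))) = ⊥ := by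
    rw [LinearMap.ker_eq_bot']
    intro x hx
    rw [LinearMap.mulLeft_apply] at hx
    have h1 := congrArg (AdjoinRoot.mk (p ^ e)) hab
    rw [map_add, map_mul, map_mul, AdjoinRoot.mk_self, mul_zero, zero_add, map_one] at h1
    rw [← one_mul x, ← h1, mul_assoc, hx, mul_zero]
  rw [hker, finrank_bot]

end quot

section dec
variable {F : Type u} {V : Type v} [Field F] [AddCommGroup V] [Module F V]

/-- kernel dimensions -/
noncomputable def kd (T : End F V) (f : F[X]) (k : ℕ) : ℕ := finrank F (LinearMap.ker (aeval T (f ^ k)))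

variable {ι : Type w} {g : ι → F[X]} {T : End F V} (φ : V ≃ₗ[F] (∀ i, AdjoinRoot (g i)))
  (hφ : ∀ v i, φ (T v) i = AdjoinRoot.root (g i) * φ v i)
include hφ

theorem aeval_comp (f : F[X]) (v : V) (i : ι) : φ (aeval T f v) i = AdjoinRoot.mk (g i) f * φ v i := by
  have hpow : ∀ (k : ℕ) v, φ ((T ^ k) v) i = AdjoinRoot.root (g i) ^ k * φ v i := by
    intro k
    induction k with
    | zero => intro v; simp
    | succ k ih => intro v; rw [pow_succ', Module.End.mul_apply, hφ, ih, pow_succ', mul_assoc]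
  induction f using Polynomial.induction_on' with
  | add a b ha hb => rw [map_add, LinearMap.add_apply, map_add, Pi.add_apply, ha, hb, map_add, add_mul]
  | monomial k a =>
    rw [aeval_monomial, Module.End.mul_apply, Module.algebraMap_end_apply, map_smul, Pi.smul_apply, hpow, ← C_mul_X_pow_eq_monomial, map_mul, map_pow,
      AdjoinRoot.mk_X, AdjoinRoot.mk_C, Algebra.smul_def, AdjoinRoot.algebraMap_eq, mul_assoc]

theorem finrank_ker_aeval [Fintype ι] (hg : ∀ i, (g i).Monic) (f : F[X]) :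
    finrank F (LinearMap.ker (aeval T f)) = ∑ i, finrank F (LinearMap.ker (LinearMap.mulLeft F (AdjoinRoot.mk (g i) f))) := by
  haveI : ∀ i, Module.Finite F (AdjoinRoot (g i)) := fun i => (AdjoinRoot.powerBasis' (hg i)).finite
  have hm : ∀ i, ∀ v ∈ LinearMap.ker (aeval T f), (((LinearMap.proj i : (∀ i, AdjoinRoot (g i)) →ₗ[F] AdjoinRoot (g i)) ∘ₗ (φ : V →ₗ[F] (∀ i, AdjoinRoot (g i)))) v) ∈
      LinearMap.ker (LinearMap.mulLeft F (AdjoinRoot.mk (g i) f)) := by
    intro i v hv
    rw [LinearMap.mem_ker] at hv ⊢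
    show AdjoinRoot.mk (g i) f * φ v i = 0
    rw [← aeval_comp φ hφ, hv, map_zero]; rfl
  let L : LinearMap.ker (aeval T f) →ₗ[F] (∀ i, LinearMap.ker (LinearMap.mulLeft F (AdjoinRoot.mk (g i) f))) :=
    LinearMap.pi fun i => ((LinearMap.proj i : (∀ i, AdjoinRoot (g i)) →ₗ[F] AdjoinRoot (g i)) ∘ₗ (φ : V →ₗ[F] (∀ i, AdjoinRoot (g i)))).restrict (hm i)
  have hL : ∀ v i, ((L v i : LinearMap.ker (LinearMap.mulLeft F (AdjoinRoot.mk (g i) f))) : AdjoinRoot (g i)) = φ v i := fun v i => rfl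
  have hbij : Function.Bijective L := by
    constructor
    · rw [injective_iff_map_eq_zero]
      intro v hv
      apply Subtype.ext
      apply φ.injective
      rw [Submodule.coe_zero, map_zero]
      funext i
      rw [← hL, hv]; rfl
    · intro w
      refine ⟨⟨φ.symm (fun i => (w i : AdjoinRoot (g i))), ?_⟩, ?_⟩
      · rw [LinearMap.mem_ker]
        apply φ.injective
        rw [map_zero]
        funext i
        rw [aeval_comp φ hφ, LinearEquiv.apply_symm_apply]
        exact (w i).2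
      · funext i
        apply Subtype.ext
        rw [hL]
        show φ (φ.symm _) i = _
        rw [LinearEquiv.apply_symm_apply]
  rw [(LinearEquiv.ofBijective L hbij).finrank_eq, Module.finrank_pi_fintype]

end dec

section main
variable {F : Type u} {V : Type v} [Field F] [AddCommGroup V] [Module F V]

open Classical in
theorem kd_eq {ι : Type w} [Fintype ι] {p : ι → F[X]} {e : ι → ℕ} {T : End F V} (hirr : ∀ i, Irreducible (p i)) (hmon : ∀ i, (p i).Monic)
    (φ : V ≃ₗ[F] (∀ i, AdjoinRoot (p i ^ e i))) (hφ : ∀ v i, φ (T v) i = AdjoinRoot.root (p i ^ e i) * φ v i) {f : F[X]} (hf : f.Monic) (hfi : Irreducible f) (k : ℕ) :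
    kd T f k = ∑ i, if p i = f then f.natDegree * min (e i) k else 0 := by
  unfold kd
  rw [finrank_ker_aeval φ hφ (fun i => (hmon i).pow _)]
  refine Finset.sum_congr rfl fun i _ => ?_
  split_ifs with h
  · rw [← h]; exact finrank_ker_same (hmon i) _ _
  · exact finrank_ker_ne (hirr i) hfi (hmon i) hf h _ _

open Classical in
theorem count_step {ι : Type w} [Fintype ι] (p : ι → F[X]) (e : ι → ℕ) (f : F[X]) (j : ℕ) (hj : 1 ≤ j) :
    (∑ i, if p i = f then f.natDegree * min (e i) (j - 1) else 0) + (∑ i, if p i = f then f.natDegree * min (e i) (j + 1) else 0) +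
      f.natDegree * Fintype.card {i // (p i, e i) = (f, j)} = 2 * (∑ i, if p i = f then f.natDegree * min (e i) j else 0) := by
  rw [Fintype.card_subtype, Finset.card_filter, Finset.mul_sum, ← Finset.sum_add_distrib, ← Finset.sum_add_distrib, Finset.mul_sum]
  refine Finset.sum_congr rfl fun i _ => ?_
  by_cases h : p i = f
  · rw [if_pos h, if_pos h, if_pos h, ← mul_add, ← mul_add, mul_left_comm]
    congr 1
    by_cases h2 : e i = j
    · rw [if_pos (by rw [h, h2])]; omega
    · rw [if_neg (by rw [Prod.mk.injEq]; exact fun h' => h2 h'.2)]; omega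
  · rw [if_neg h, if_neg h, if_neg h, if_neg (by rw [Prod.mk.injEq]; exact fun h' => h h'.1)]; simp

open Classical in
/-- matching of the blocks -/
theorem exists_sigma {ι : Type w} {ι' : Type*} [Fintype ι] [Fintype ι'] (p : ι → F[X]) (e : ι → ℕ) (p' : ι' → F[X]) (e' : ι' → ℕ)
    (hirr : ∀ i, Irreducible (p i)) (hmon : ∀ i, (p i).Monic) (he : ∀ i, 0 < e i)
    (hirr' : ∀ i, Irreducible (p' i)) (hmon' : ∀ i, (p' i).Monic) (he' : ∀ i, 0 < e' i)
    (h : ∀ f : F[X], f.Monic → Irreducible f → ∀ k, (∑ i, if p i = f then f.natDegree * min (e i) k else 0) = ∑ i, if p' i = f then f.natDegree * min (e' i) k else 0) :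
    ∃ σ : ι ≃ ι', ∀ i, p' (σ i) = p i ∧ e' (σ i) = e i := by
  have hcard : ∀ x : F[X] × ℕ, Fintype.card {i // (p i, e i) = x} = Fintype.card {i // (p' i, e' i) = x} := by
    rintro ⟨f, j⟩
    by_cases hx : f.Monic ∧ Irreducible f ∧ 1 ≤ j
    · obtain ⟨hf, hfi, hj⟩ := hx
      have h1 := count_step p e f j hj
      have h2 := count_step p' e' f j hj
      rw [h f hf hfi, h f hf hfi, h f hf hfi] at h1
      have h3 : f.natDegree * Fintype.card {i // (p i, e i) = (f, j)} = f.natDegree * Fintype.card {i // (p' i, e' i) = (f, j)} := by omega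
      exact Nat.eq_of_mul_eq_mul_left hfi.natDegree_pos h3
    · haveI : IsEmpty {i // (p i, e i) = (f, j)} := ⟨fun ⟨i, hi⟩ => hx (by
        rw [Prod.mk.injEq] at hi
        exact ⟨hi.1 ▸ hmon i, hi.1 ▸ hirr i, hi.2 ▸ he i⟩)⟩
      haveI : IsEmpty {i // (p' i, e' i) = (f, j)} := ⟨fun ⟨i, hi⟩ => hx (by
        rw [Prod.mk.injEq] at hi
        exact ⟨hi.1 ▸ hmon' i, hi.1 ▸ hirr' i, hi.2 ▸ he' i⟩)⟩
      rw [Fintype.card_eq_zero, Fintype.card_eq_zero]
  let σ : ι ≃ ι' := (Equiv.sigmaFiberEquiv (fun i => (p i, e i))).symm.trans ((Equiv.sigmaCongrRight fun x => Fintype.equivOfCardEq (hcard x)).trans (Equiv.sigmaFiberEquiv (fun i => (p' i, e' i))))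
  refine ⟨σ, fun i => ?_⟩
  have h1 : (p' (σ i), e' (σ i)) = (p i, e i) := (Fintype.equivOfCardEq (hcard (p i, e i)) ⟨i, rfl⟩).2
  rw [Prod.mk.injEq] at h1
  exact h1

/-- assembling the isomorphism -/
theorem glue {V' : Type*} [AddCommGroup V'] [Module F V'] {ι : Type w} {ι' : Type*} {g : ι → F[X]} {g' : ι' → F[X]} {T : End F V} {T' : End F V'}
    (φ : V ≃ₗ[F] (∀ i, AdjoinRoot (g i))) (hφ : ∀ v i, φ (T v) i = AdjoinRoot.root (g i) * φ v i)
    (φ' : V' ≃ₗ[F] (∀ i, AdjoinRoot (g' i))) (hφ' : ∀ v i, φ' (T' v) i = AdjoinRoot.root (g' i) * φ' v i)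
    (σ : ι ≃ ι') (hσ : ∀ i, g' (σ i) = g i) : ∃ ψ : V ≃ₗ[F] V', ∀ v, ψ (T v) = T' (ψ v) := by
  let c : ∀ i, AdjoinRoot (g' (σ i)) ≃ₐ[F] AdjoinRoot (g i) := fun i => AdjoinRoot.algEquivOfEq F _ _ (hσ i)
  have hc : ∀ i, c i (AdjoinRoot.root (g' (σ i))) = AdjoinRoot.root (g i) := fun i => AdjoinRoot.algEquivOfEq_root _ _ (hσ i)
  let E : (∀ i, AdjoinRoot (g' i)) ≃ₗ[F] (∀ i, AdjoinRoot (g i)) :=
    (LinearEquiv.piCongrLeft' F (fun i => AdjoinRoot (g' i)) σ.symm).trans (LinearEquiv.piCongrRight fun i => (c i).toLinearEquiv)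
  have hE : ∀ w i, E w i = c i (w (σ i)) := fun w i => rfl
  refine ⟨(φ.trans E.symm).trans φ'.symm, fun v => ?_⟩
  apply φ'.injective
  apply E.injective
  funext i
  show E (φ' (φ'.symm (E.symm (φ (T v))))) i = E (φ' (T' (φ'.symm (E.symm (φ v))))) i
  rw [LinearEquiv.apply_symm_apply, LinearEquiv.apply_symm_apply, hφ, hE, hφ', LinearEquiv.apply_symm_apply, map_mul, hc, ← hE, LinearEquiv.apply_symm_apply]

theorem conj_of_kd [FiniteDimensional F V] {V' : Type*} [AddCommGroup V'] [Module F V'] [FiniteDimensional F V'] (T : End F V) (T' : End F V')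
    (h : ∀ f : F[X], f.Monic → Irreducible f → ∀ k, kd T f k = kd T' f k) : ∃ ψ : V ≃ₗ[F] V', ∀ v, ψ (T v) = T' (ψ v) := by
  classical
  obtain ⟨ι, hι, p, e, hirr, hmon, he, φ, hφ⟩ := CfsgLib.Str.exists_decomp T
  obtain ⟨ι', hι', p', e', hirr', hmon', he', φ', hφ'⟩ := CfsgLib.Str.exists_decomp T'
  obtain ⟨σ, hσ⟩ := exists_sigma p e p' e' hirr hmon he hirr' hmon' he' (fun f hf hfi k => by
    have h1 := kd_eq hirr hmon φ hφ hf hfi k
    have h2 := kd_eq hirr' hmon' φ' hφ' hf hfi k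
    have h3 := (h1.symm.trans (h f hf hfi k)).trans h2
    convert h3 using 4)
  exact glue φ hφ φ' hφ' σ (fun i => by rw [(hσ i).1, (hσ i).2])

theorem kd_congr {V' : Type*} [AddCommGroup V'] [Module F V'] {T : End F V} {T' : End F V'} (ψ : V ≃ₗ[F] V') (hψ : ∀ v, ψ (T v) = T' (ψ v)) (f : F[X]) (k : ℕ) :
    kd T f k = kd T' f k := by
  have h1 : ∀ (g : F[X]) v, ψ (aeval T g v) = aeval T' g (ψ v) := by
    intro g v
    have hpow : ∀ (k : ℕ) v, ψ ((T ^ k) v) = (T' ^ k) (ψ v) := by
      intro k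
      induction k with
      | zero => intro v; simp
      | succ k ih => intro v; rw [pow_succ', Module.End.mul_apply, hψ, ih, pow_succ', Module.End.mul_apply]
    induction g using Polynomial.induction_on' with
    | add a b ha hb => rw [map_add, LinearMap.add_apply, map_add, ha, hb, map_add, LinearMap.add_apply]
    | monomial k a => rw [aeval_monomial, aeval_monomial, Module.End.mul_apply, Module.End.mul_apply, Module.algebraMap_end_apply, Module.algebraMap_end_apply, map_smul, hpow]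
  unfold kd
  have h2 : (LinearMap.ker (aeval T (f ^ k))).map (ψ : V →ₗ[F] V') = LinearMap.ker (aeval T' (f ^ k)) := by
    ext v'
    rw [Submodule.mem_map, LinearMap.mem_ker]
    constructor
    · rintro ⟨v, hv, rfl⟩
      rw [LinearMap.mem_ker] at hv
      show aeval T' (f ^ k) (ψ v) = 0
      rw [← h1, hv, map_zero]
    · intro hv
      refine ⟨ψ.symm v', ?_, ψ.apply_symm_apply v'⟩
      rw [LinearMap.mem_ker]
      apply ψ.injective
      rw [h1, LinearEquiv.apply_symm_apply, hv, map_zero]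
  rw [← h2]
  exact (LinearEquiv.finrank_map_eq ψ _).symm

end main

end CfsgLib.Typ
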