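import Mathlib
import Cfsg.Agent.LibTypH13
import Cfsg.Agent.LibSSH13

/-! Characteristic polynomials and semisimple operators (seat helper13). -/

namespace CfsgLib.CP

open Module Polynomial CfsgLib.Typ

universe u v w

variable {F : Type u} [Field F]

theorem charpoly_pi (ι : Type w) [Fintype ι] : ∀ (W : ι → Type v) [∀ i, AddCommGroup (W i)] [∀ i, Module F (W i)] [∀ i, FiniteDimensional F (W i)]
    (f : ∀ i, End F (W i)), (LinearMap.pi fun i => (f i).comp (LinearMap.proj i) : End F (∀ i, W i)).charpoly = ∏ i, (f i).charpoly := by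
  classical
  refine Fintype.induction_empty_option (P := fun ι [Fintype ι] => ∀ (W : ι → Type v) [∀ i, AddCommGroup (W i)] [∀ i, Module F (W i)] [∀ i, FiniteDimensional F (W i)]
    (f : ∀ i, End F (W i)), (LinearMap.pi fun i => (f i).comp (LinearMap.proj i) : End F (∀ i, W i)).charpoly = ∏ i, (f i).charpoly) ?_ ?_ ?_ ι
  · intro α β _ e h W _ _ _ f
    letI := Fintype.ofEquiv β e.symm
    let E : (∀ i, W i) ≃ₗ[F] (∀ a, W (e a)) := LinearEquiv.piCongrLeft' F W e.symm
    have h1 : (LinearMap.pi fun i => (f i).comp (LinearMap.proj i) : End F (∀ i, W i)) =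
        E.symm.conj (LinearMap.pi fun a => (f (e a)).comp (LinearMap.proj a) : End F (∀ a, W (e a))) := by
      refine LinearMap.ext fun x => ?_
      rw [LinearEquiv.conj_apply_apply, LinearEquiv.symm_symm]
      rw [LinearEquiv.eq_symm_apply]
      rfl
    rw [h1, LinearEquiv.charpoly_conj]
    rw [← Equiv.prod_comp e (fun i => (f i).charpoly)]
    exact h (fun a => W (e a)) (fun a => f (e a))
  · intro W _ _ _ f
    rw [Finset.univ_eq_empty, Finset.prod_empty]
    refine eq_one_of_monic_natDegree_zero (LinearMap.charpoly_monic _) ?_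
    rw [LinearMap.charpoly_natDegree]
    exact finrank_zero_of_subsingleton
  · intro α _ h W _ _ _ f
    rw [Fintype.prod_option, ← h (fun a => W (some a)) (fun a => f (some a)), ← LinearMap.charpoly_prodMap]
    let E : (∀ i, W i) ≃ₗ[F] W none × (∀ a : α, W (some a)) := LinearEquiv.piOptionEquivProd F
    have h1 : (LinearMap.pi fun i => (f i).comp (LinearMap.proj i) : End F (∀ i, W i)) =
        E.symm.conj ((f none).prodMap (LinearMap.pi fun a => (f (some a)).comp (LinearMap.proj a) : End F (∀ a : α, W (some a)))) := by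
      refine LinearMap.ext fun x => ?_
      rw [LinearEquiv.conj_apply_apply, LinearEquiv.symm_symm]
      rw [LinearEquiv.eq_symm_apply]
      rfl
    rw [h1, LinearEquiv.charpoly_conj]

theorem charpoly_root {g : F[X]} (hg : g.Monic) [FiniteDimensional F (AdjoinRoot g)] : (LinearMap.mulLeft F (AdjoinRoot.root g)).charpoly = g := by
  have h := charpoly_leftMulMatrix (AdjoinRoot.powerBasis hg.ne_zero)
  rw [AdjoinRoot.minpoly_powerBasis_gen_of_monic hg] at h
  rw [← LinearMap.charpoly_toMatrix _ (AdjoinRoot.powerBasis hg.ne_zero).basis]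
  exact h

/-- characteristic polynomial from a decomposition -/
theorem charpoly_dec {V : Type v} [AddCommGroup V] [Module F V] [FiniteDimensional F V] {ι : Type w} [Fintype ι] {g : ι → F[X]} {T : End F V}
    (hg : ∀ i, (g i).Monic) (φ : V ≃ₗ[F] (∀ i, AdjoinRoot (g i))) (hφ : ∀ v i, φ (T v) i = AdjoinRoot.root (g i) * φ v i) :
    T.charpoly = ∏ i, g i := by
  haveI : ∀ i, Module.Finite F (AdjoinRoot (g i)) := fun i => (AdjoinRoot.powerBasis' (hg i)).finite
  have h1 : T = φ.symm.conj (LinearMap.pi fun i => (LinearMap.mulLeft F (AdjoinRoot.root (g i))).comp (LinearMap.proj i) : End F (∀ i, AdjoinRoot (g i))) := by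
    refine LinearMap.ext fun x => ?_
    rw [LinearEquiv.conj_apply_apply, LinearEquiv.symm_symm, LinearEquiv.eq_symm_apply]
    funext i
    exact hφ x i
  rw [h1, LinearEquiv.charpoly_conj, charpoly_pi]
  exact Finset.prod_congr rfl fun i _ => charpoly_root (hg i)

/-- Semisimple operators with the same characteristic polynomial are conjugate. -/
theorem conj_of_charpoly {p : ℕ} [Fact p.Prime] [CharP F p] {V : Type u} [AddCommGroup V] [Module F V] [FiniteDimensional F V] {V' : Type u} [AddCommGroup V'] [Module F V']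
    [FiniteDimensional F V'] {T : End F V} {T' : End F V'} {N N' : ℕ} (hN : N.Coprime p) (hT : T ^ N = 1) (hN' : N'.Coprime p) (hT' : T' ^ N' = 1)
    (h : T.charpoly = T'.charpoly) : ∃ ψ : V ≃ₗ[F] V', ∀ v, ψ (T v) = T' (ψ v) := by
  classical
  obtain ⟨ι, hι, P, e, hirr, hmon, he, φ, hφ⟩ := CfsgLib.Str.exists_decomp T
  obtain ⟨ι', hι', P', e', hirr', hmon', he', φ', hφ'⟩ := CfsgLib.Str.exists_decomp T'
  have h1 : ∀ i, e i = 1 := fun i => CfsgLib.SS.exp_eq_one' (hirr i) (he i) hN (CfsgLib.SS.exp_eq_one hirr he φ hφ hT i)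
  have h1' : ∀ i, e' i = 1 := fun i => CfsgLib.SS.exp_eq_one' (hirr' i) (he' i) hN' (CfsgLib.SS.exp_eq_one hirr' he' φ' hφ' hT' i)
  have h2 := charpoly_dec (fun i => (hmon i).pow _) φ hφ
  have h2' := charpoly_dec (fun i => (hmon' i).pow _) φ' hφ'
  rw [h, h2'] at h2
  simp only [h1, h1', pow_one] at h2
  have h3 : (Finset.univ.val.map P') = (Finset.univ.val.map P) := by
    have h4 : Multiset.Rel Associated (Finset.univ.val.map P') (Finset.univ.val.map P) := by
      refine UniqueFactorizationMonoid.factors_unique ?_ ?_ ?_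
      · intro x hx
        obtain ⟨i, -, rfl⟩ := Multiset.mem_map.1 hx
        exact hirr' i
      · intro x hx
        obtain ⟨i, -, rfl⟩ := Multiset.mem_map.1 hx
        exact hirr i
      · rw [show (Multiset.map P' Finset.univ.val).prod = ∏ i, P' i from rfl, show (Multiset.map P Finset.univ.val).prod = ∏ i, P i from rfl, h2]
        exact Associated.refl _
    rw [← Multiset.rel_eq]
    refine h4.mono fun a ha b hb hab => ?_
    obtain ⟨i, -, rfl⟩ := Multiset.mem_map.1 ha
    obtain ⟨j, -, rfl⟩ := Multiset.mem_map.1 hb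
    exact eq_of_monic_of_associated (hmon' i) (hmon j) hab
  refine conj_of_kd T T' fun f hf hfi k => ?_
  rw [kd_eq hirr hmon φ hφ hf hfi k, kd_eq hirr' hmon' φ' hφ' hf hfi k]
  simp only [h1, h1']
  have h5 := congrArg (fun s => (Multiset.map (fun g : F[X] => if g = f then f.natDegree * min 1 k else 0) s).sum) h3
  simp only [Multiset.map_map] at h5
  exact h5.symm

end CfsgLib.CP
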