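import Mathlib
import Cfsg.Agent.LibCPH13

/-! Characteristic polynomials: existence (seat helper13). -/

namespace CfsgLib.CP

open Module Polynomial

variable {F : Type*} [Field F]

theorem exists_monic {n : ℕ} (b : Fin n → F) : ∃ P : F[X], P.Monic ∧ P.natDegree = n ∧ ∀ i : Fin n, P.coeff i = b i := by
  have hdeg : (∑ i : Fin n, C (b i) * X ^ (i : ℕ) : F[X]).degree < (n : WithBot ℕ) := by
    refine lt_of_le_of_lt (degree_sum_le _ _) ?_
    rw [Finset.sup_lt_iff (WithBot.bot_lt_coe _)]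
    intro i _
    exact lt_of_le_of_lt (degree_C_mul_X_pow_le _ _) (by exact_mod_cast i.2)
  refine ⟨X ^ n + ∑ i : Fin n, C (b i) * X ^ (i : ℕ), monic_X_pow_add hdeg, ?_, ?_⟩
  · apply natDegree_eq_of_degree_eq_some
    rw [degree_add_eq_left_of_degree_lt (by rw [degree_X_pow]; exact hdeg), degree_X_pow]
  · intro i
    rw [coeff_add, coeff_X_pow, if_neg (by have := i.2; omega), zero_add, finset_sum_coeff, Finset.sum_eq_single i]
    · rw [coeff_C_mul_X_pow, if_pos rfl]
    · intro j _ hj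
      rw [coeff_C_mul_X_pow, if_neg (fun h => hj (Fin.ext h.symm))]
    · intro h; exact absurd (Finset.mem_univ _) h

theorem monic_ext {n : ℕ} {P Q : F[X]} (hP : P.Monic) (hQ : Q.Monic) (hPn : P.natDegree = n) (hQn : Q.natDegree = n)
    (h : ∀ i : Fin n, P.coeff i = Q.coeff i) : P = Q := by
  ext i
  rcases lt_trichotomy i n with hi | rfl | hi
  · exact h ⟨i, hi⟩
  · have h1 := hP.coeff_natDegree
    have h2 := hQ.coeff_natDegree
    rw [hPn] at h1; rw [hQn] at h2
    rw [h1, h2]
  · rw [coeff_eq_zero_of_natDegree_lt (by omega), coeff_eq_zero_of_natDegree_lt (by omega)]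

/-- the companion matrix -/
theorem exists_companion {n : ℕ} {P : F[X]} (hP : P.Monic) (hn : P.natDegree = n) : ∃ M : Matrix (Fin n) (Fin n) F, M.charpoly = P := by
  subst hn
  have hf : FiniteDimensional F (AdjoinRoot P) := (AdjoinRoot.powerBasis' hP).finite
  let b : Basis (Fin P.natDegree) F (AdjoinRoot P) := Module.finBasisOfFinrankEq F _ (CfsgLib.Typ.finrank_adjoinRoot hP)
  exact ⟨LinearMap.toMatrix b b (LinearMap.mulLeft F (AdjoinRoot.root P)), by rw [LinearMap.charpoly_toMatrix, charpoly_root hP]⟩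

/-- killing the p-part -/
theorem exists_pow_coprime [Fintype F] {p : ℕ} [Fact p.Prime] [CharP F p] {G : Type*} [Group G] [Finite G] (g : G) :
    ∃ N, (orderOf (g ^ (Fintype.card F ^ N))).Coprime p := by
  obtain ⟨a, b, hb, hab⟩ := Nat.exists_eq_pow_mul_and_not_dvd (orderOf_pos g).ne' p (Fact.out : p.Prime).ne_one
  obtain ⟨f, hf⟩ := FiniteField.card F p
  refine ⟨a, ?_⟩
  have h1 : (g ^ (Fintype.card F ^ a)) ^ b = 1 := by
    rw [← pow_mul, ← orderOf_dvd_iff_pow_eq_one, hab, hf.2, ← pow_mul]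
    refine Nat.mul_dvd_mul_right (pow_dvd_pow p ?_) b
    exact Nat.le_mul_of_pos_left a f.2
  have h2 := orderOf_dvd_of_pow_eq_one h1
  refine Nat.Coprime.coprime_dvd_left h2 ?_
  exact ((Nat.Prime.coprime_iff_not_dvd Fact.out).2 hb).symm

theorem charpoly_pow [Fintype F] {n : ℕ} (M : Matrix (Fin n) (Fin n) F) (N : ℕ) : (M ^ (Fintype.card F ^ N)).charpoly = M.charpoly := by
  induction N with
  | zero => rw [pow_zero, pow_one]
  | succ N ih => rw [pow_succ, pow_mul, FiniteField.Matrix.charpoly_pow_card, ih]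

end CfsgLib.CP
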