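import Mathlib
import Cfsg.Agent.LibFgClass

/-!
Groups with the conjugacy type of a nilpotent group (Cossey–Hawkes–Mann).
-/

set_option autoImplicit false

namespace CfsgLib.CT28

open Subgroup MulAction
open scoped Pointwise

variable {G : Type*} [Group G] [Finite G] {p : ℕ} [hp : Fact p.Prime]

/-- class size of `x` is prime to `p` -/
def Dp (G : Type*) [Group G] (p : ℕ) : Set G := {x | ¬ p ∣ (centralizer ({x} : Set G)).index}

theorem cen_mono {x y : G} (h : ∀ g, g * x = x * g → g * y = y * g) :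
    centralizer ({x} : Set G) ≤ centralizer ({y} : Set G) := by
  intro g hg
  rw [mem_centralizer_singleton_iff] at hg ⊢
  exact h g hg

theorem Dp_of {x y : G} (hx : x ∈ Dp G p) (h : ∀ g, g * x = x * g → g * y = y * g) : y ∈ Dp G p :=
  fun hd => hx (hd.trans (index_dvd_of_le (cen_mono h)))

theorem exists_conj (P : Sylow p G) {x : G} (hx : x ∈ Dp G p) :
    ∃ g : G, g * x * g⁻¹ ∈ centralizer ((P : Subgroup G) : Set G) := by
  obtain ⟨y, hy⟩ := P.2.nonempty_fixed_point_of_prime_not_dvd_card (G ⧸ centralizer ({x} : Set G)) hx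
  obtain ⟨g, rfl⟩ := QuotientGroup.mk_surjective y
  refine ⟨g, ?_⟩
  rw [mem_centralizer_iff]
  intro u hu
  have h1 := hy ⟨u, hu⟩
  have h2 : (QuotientGroup.mk (u * g) : G ⧸ centralizer ({x} : Set G)) = QuotientGroup.mk g := h1
  rw [eq_comm, QuotientGroup.eq, mem_centralizer_singleton_iff] at h2
  have h3 : u * (g * x * g⁻¹) = g * (g⁻¹ * (u * g) * x) * g⁻¹ := by group
  rw [h3, h2]
  group

theorem mem_Dp_of_mem (P : Sylow p G) {x : G} (hx : x ∈ centralizer ((P : Subgroup G) : Set G)) :
    x ∈ Dp G p := by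
  intro hd
  have h1 : (P : Subgroup G) ≤ centralizer ({x} : Set G) := by
    intro u hu
    rw [mem_centralizer_singleton_iff]
    exact (mem_centralizer_iff.1 hx) u hu
  exact P.not_dvd_index (hd.trans (index_dvd_of_le h1))

theorem card_inf_center (P : Sylow p G) :
    Nat.card ↥((P : Subgroup G) ⊓ center G) = p ^ (Nat.card (center G)).factorization p := by
  obtain ⟨k, hk⟩ := (IsPGroup.iff_card).1 (P.2.to_le (inf_le_left : (P : Subgroup G) ⊓ center G ≤ P))
  have h1 : p ^ k ∣ Nat.card (center G) := hk ▸ card_dvd_of_le inf_le_right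
  have h2 : k ≤ (Nat.card (center G)).factorization p :=
    (hp.out.pow_dvd_iff_le_factorization Nat.card_pos.ne').1 h1
  let S : Sylow p (center G) := default
  have hS : Nat.card ((S : Subgroup (center G)).map (center G).subtype) = p ^ (Nat.card (center G)).factorization p := by
    rw [Subgroup.card_map_of_injective (subtype_injective _)]
    exact S.card_eq_multiplicity
  have hSc : (S : Subgroup (center G)).map (center G).subtype ≤ center G := map_subtype_le _
  haveI : ((S : Subgroup (center G)).map (center G).subtype).Normal := by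
    constructor
    intro n hn g
    have := (mem_center_iff.1 (hSc hn)) g
    rw [this, mul_inv_cancel_right]
    exact hn
  have h3 : (S : Subgroup (center G)).map (center G).subtype ≤ (P : Subgroup G) ⊓ center G :=
    le_inf ((S.2.map _).le_sylow_of_normal P) hSc
  have h4 := card_dvd_of_le h3
  rw [hS, hk] at h4
  rw [hk]
  exact congrArg _ (le_antisymm h2 ((Nat.pow_dvd_pow_iff_le_right hp.out.one_lt).1 h4))

theorem z_one {x z g : G} {n : ℕ} (hx : x ∈ Dp G p) (hz : z ∈ center G) (hzp : z ^ (p ^ n) = 1)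
    (hg : g * x * g⁻¹ = x * z) : z = 1 := by
  classical
  have hc : ∀ y : G, y * z = z * y := mem_center_iff.1 hz
  have hcard : Nat.card (ConjClasses.mk x).carrier = (centralizer ({x} : Set G)).index :=
    CfsgLib.FgClass.ncard_carrier x
  have hg' : g⁻¹ * x * g = x * z⁻¹ := by
    have h1 : x = g⁻¹ * (x * z) * g := by rw [← hg]; group
    have h2 : x = g⁻¹ * x * g * z := by
      rw [mul_assoc (g⁻¹ * x) g z, hc g]
      nth_rewrite 1 [h1]
      simp only [mul_assoc]
    exact eq_mul_inv_of_mul_eq h2.symm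
  have hmem : ∀ y : G, y ∈ (ConjClasses.mk x).carrier → y * z ∈ (ConjClasses.mk x).carrier := by
    intro y hy
    rw [ConjClasses.mem_carrier_iff_mk_eq, ConjClasses.mk_eq_mk_iff_isConj] at hy ⊢
    obtain ⟨h, hh⟩ := isConj_iff.1 hy.symm
    refine (isConj_iff.2 ⟨h * g, ?_⟩ : IsConj x (y * z)).symm
    have : h * g * x * (h * g)⁻¹ = h * (g * x * g⁻¹) * h⁻¹ := by group
    rw [this, hg, ← hh, mul_assoc (h * x) h⁻¹ z, hc h⁻¹]
    simp only [mul_assoc]
  have hmem' : ∀ y : G, y ∈ (ConjClasses.mk x).carrier → y * z⁻¹ ∈ (ConjClasses.mk x).carrier := by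
    intro y hy
    rw [ConjClasses.mem_carrier_iff_mk_eq, ConjClasses.mk_eq_mk_iff_isConj] at hy ⊢
    obtain ⟨h, hh⟩ := isConj_iff.1 hy.symm
    refine (isConj_iff.2 ⟨h * g⁻¹, ?_⟩ : IsConj x (y * z⁻¹)).symm
    have h2 : h * g⁻¹ * x * (h * g⁻¹)⁻¹ = h * (g⁻¹ * x * g) * h⁻¹ := by group
    have h3 : z⁻¹ * h⁻¹ = h⁻¹ * z⁻¹ := by
      rw [← mul_inv_rev, ← mul_inv_rev, hc h]
    rw [h2, hg', ← hh, mul_assoc (h * x) h⁻¹ z⁻¹, ← h3]
    simp only [mul_assoc]
  let σ : Equiv.Perm (ConjClasses.mk x).carrier :=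
    { toFun := fun y => ⟨y.1 * z, hmem _ y.2⟩
      invFun := fun y => ⟨y.1 * z⁻¹, hmem' _ y.2⟩
      left_inv := fun y => Subtype.ext (by simp)
      right_inv := fun y => Subtype.ext (by simp) }
  have hσ : ∀ k : ℕ, ∀ y, ((σ ^ k) y).1 = y.1 * z ^ k := by
    intro k
    induction k with
    | zero => intro y; simp
    | succ k ih =>
      intro y
      rw [pow_succ', Equiv.Perm.mul_apply]
      change ((σ ^ k) y).1 * z = _
      rw [ih y, pow_succ, mul_assoc]
  have hσ1 : σ ^ p ^ n = 1 := by
    ext y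
    rw [hσ, hzp, mul_one]
    rfl
  haveI : Fintype (ConjClasses.mk x).carrier := Fintype.ofFinite _
  have h1 : ¬ p ∣ Fintype.card (ConjClasses.mk x).carrier := by
    rw [← Nat.card_eq_fintype_card, hcard]
    exact hx
  obtain ⟨y, hy⟩ := Equiv.Perm.exists_fixed_point_of_prime h1 hσ1
  have h2 : y.1 * z = y.1 := congrArg Subtype.val hy
  exact mul_eq_left.1 h2

/-- Step 1: `Z(P) ≤ Z(G)` -/
theorem step1 (P : Sylow p G)
    (h : Nat.card (Dp G p) = Nat.card ↥((P : Subgroup G) ⊓ center G) * (P : Subgroup G).index) :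
    (P : Subgroup G) ⊓ centralizer ((P : Subgroup G) : Set G) = (P : Subgroup G) ⊓ center G := by
  classical
  set Z : Subgroup G := (P : Subgroup G) ⊓ center G with hZ
  set C : Subgroup G := centralizer ((P : Subgroup G) : Set G) with hC
  have hZc : Z ≤ center G := inf_le_right
  have hZC : Z ≤ C := hZc.trans (center_le_centralizer _)
  haveI hZn : Z.Normal := by
    constructor
    intro n hn g
    have := (mem_center_iff.1 (hZc hn)) g
    rw [this, mul_inv_cancel_right]
    exact hn
  have hDZ : ((Dp G p) * (Z : Set G) : Set G) = Dp G p := by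
    ext x
    constructor
    · rintro ⟨d, hd, z, hz, rfl⟩
      have hc := mem_center_iff.1 (hZc hz)
      refine Dp_of hd ?_
      intro g hg
      change g * (d * z) = d * z * g
      rw [← mul_assoc, hg, mul_assoc, mul_assoc, hc g]
    · intro hx
      exact ⟨x, hx, 1, Z.one_mem, mul_one x⟩
  have hCZ : ((C : Set G) * (Z : Set G) : Set G) = C := by
    ext x
    constructor
    · rintro ⟨d, hd, z, hz, rfl⟩
      exact C.mul_mem hd (hZC hz)
    · intro hx
      exact ⟨x, hx, 1, Z.one_mem, mul_one x⟩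
  have hDc := card_mul_eq_card_subgroup_mul_card_quotient Z (Dp G p)
  rw [hDZ, h] at hDc
  have hDc' := Nat.eq_of_mul_eq_mul_left Nat.card_pos hDc
  have hCc := card_mul_eq_card_subgroup_mul_card_quotient Z (C : Set G)
  rw [hCZ] at hCc
  set D' : Set (G ⧸ Z) := (fun x : G => (x : G ⧸ Z)) '' Dp G p with hD'
  set C' : Set (G ⧸ Z) := (fun x : G => (x : G ⧸ Z)) '' (C : Set G) with hC'
  have hinv : ∀ (g : G) (y : G ⧸ Z), y ∈ D' → (g : G ⧸ Z) * y * (g : G ⧸ Z)⁻¹ ∈ D' := by
    rintro g _ ⟨x, hx, rfl⟩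
    refine ⟨g * x * g⁻¹, ?_, by simp⟩
    change ¬ p ∣ _
    rw [← CfsgLib.FgClass.ncard_carrier]
    have h1 : ConjClasses.mk (g * x * g⁻¹) = ConjClasses.mk x := by
      rw [ConjClasses.mk_eq_mk_iff_isConj]
      exact (isConj_iff.2 ⟨g, rfl⟩ : IsConj x _).symm
    rw [h1, CfsgLib.FgClass.ncard_carrier]
    exact hx
  letI act : MulAction (P : Subgroup G) D' :=
    { smul := fun g y => ⟨((g : G) : G ⧸ Z) * y.1 * ((g : G) : G ⧸ Z)⁻¹, hinv g _ y.2⟩
      one_smul := fun y => Subtype.ext (by
        change (((1 : (P : Subgroup G)) : G) : G ⧸ Z) * y.1 * (((1 : (P : Subgroup G)) : G) : G ⧸ Z)⁻¹ = y.1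
        simp)
      mul_smul := fun g g' y => Subtype.ext (by
        change (((g * g' : (P : Subgroup G)) : G) : G ⧸ Z) * y.1 * (((g * g' : (P : Subgroup G)) : G) : G ⧸ Z)⁻¹ =
          ((g : G) : G ⧸ Z) * (((g' : G) : G ⧸ Z) * y.1 * ((g' : G) : G ⧸ Z)⁻¹) * ((g : G) : G ⧸ Z)⁻¹
        simp [mul_assoc]) }
  have hfix : (Subtype.val '' (fixedPoints (P : Subgroup G) D')) = C' := by
    ext y
    constructor
    · rintro ⟨⟨_, x, hx, rfl⟩, hy, rfl⟩
      refine ⟨x, ?_, rfl⟩
      rw [SetLike.mem_coe, hC, mem_centralizer_iff]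
      intro g hg
      have h1 := congrArg Subtype.val (hy ⟨g, hg⟩)
      have h2 : (g : G ⧸ Z) * (x : G ⧸ Z) * (g : G ⧸ Z)⁻¹ = (x : G ⧸ Z) := h1
      have h3 : ((g * x * g⁻¹ : G) : G ⧸ Z) = (x : G ⧸ Z) := by simpa using h2
      rw [eq_comm, QuotientGroup.eq] at h3
      obtain ⟨n, hn⟩ := P.2 ⟨_, (inf_le_left : Z ≤ P) h3⟩
      have h4 := z_one (p := p) (n := n) (g := g) hx (hZc h3) (by simpa using congrArg Subtype.val hn) (by group)
      have h5 : g * x * g⁻¹ = x := by
        have := inv_mul_eq_one.1 h4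
        exact this.symm
      exact mul_inv_eq_iff_eq_mul.1 h5
    · rintro ⟨x, hx, rfl⟩
      refine ⟨⟨(x : G ⧸ Z), x, mem_Dp_of_mem P hx, rfl⟩, ?_, rfl⟩
      intro g
      refine Subtype.ext ?_
      change ((g : G) : G ⧸ Z) * (x : G ⧸ Z) * ((g : G) : G ⧸ Z)⁻¹ = (x : G ⧸ Z)
      have h1 : (g : G) * x = x * g := (mem_centralizer_iff.1 hx) g g.2
      rw [← QuotientGroup.mk_mul, h1, QuotientGroup.mk_mul, mul_inv_cancel_right]
  have hmod := P.2.card_modEq_card_fixedPoints D'
  have hcf : Nat.card (fixedPoints (P : Subgroup G) D') = Nat.card C' := by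
    rw [← hfix, Nat.card_image_of_injective Subtype.val_injective]
  have hpC : ¬ p ∣ Nat.card C' := by
    intro hd
    rw [hcf] at hmod
    have h1 : p ∣ Nat.card D' := (Nat.modEq_zero_iff_dvd.1 (hmod.trans (Nat.modEq_zero_iff_dvd.2 hd)))
    have h2 : Nat.card D' = (P : Subgroup G).index := hDc'.symm
    rw [h2] at h1
    exact P.not_dvd_index h1
  have hA : Nat.card ↥((P : Subgroup G) ⊓ C) ∣ Nat.card Z := by
    obtain ⟨k, hk⟩ := (IsPGroup.iff_card).1 (P.2.to_le (inf_le_left : (P : Subgroup G) ⊓ C ≤ P))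
    have h1 : Nat.card ↥((P : Subgroup G) ⊓ C) ∣ Nat.card Z * Nat.card C' := by
      have := card_dvd_of_le (inf_le_right : (P : Subgroup G) ⊓ C ≤ C)
      have h2 : Nat.card C = Nat.card Z * Nat.card C' := hCc
      rwa [h2] at this
    refine Nat.Coprime.dvd_of_dvd_mul_right ?_ h1
    rw [hk]
    exact Nat.Coprime.pow_left _ ((Nat.Prime.coprime_iff_not_dvd hp.out).2 hpC)
  have hle : Z ≤ (P : Subgroup G) ⊓ C := le_inf inf_le_left hZC
  exact (eq_of_le_of_card_ge hle (Nat.le_of_dvd Nat.card_pos hA)).symm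

theorem mem_of_commute (P : Sylow p G) {y : G} (hy : y ^ (Nat.card P) = 1)
    (hc : y ∈ centralizer ((P : Subgroup G) : Set G)) : y ∈ (P : Subgroup G) := by
  obtain ⟨k, hk⟩ := (IsPGroup.iff_card).1 P.2
  have h1 : IsPGroup p (zpowers y) := by
    rw [IsPGroup.iff_card]
    have h2 : Nat.card (zpowers y) ∣ p ^ k := by
      rw [Nat.card_zpowers]
      exact orderOf_dvd_of_pow_eq_one (hk ▸ hy)
    obtain ⟨j, -, hj⟩ := (Nat.dvd_prime_pow hp.out).1 h2
    exact ⟨j, hj⟩
  have h2 : zpowers y ≤ normalizer ((P : Subgroup G) : Set G) := by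
    rw [zpowers_le]
    exact centralizer_le_normalizer _ hc
  have h3 : IsPGroup p ((P : Subgroup G) ⊔ zpowers y : Subgroup G) := P.2.to_sup_of_normal_left' h1 h2
  have h4 := P.3 h3 le_sup_left
  rw [← h4]
  exact (le_sup_right : zpowers y ≤ (P : Subgroup G) ⊔ zpowers y) (mem_zpowers y)

theorem normal_of (P : Sylow p G)
    (h : Nat.card (Dp G p) = Nat.card ↥((P : Subgroup G) ⊓ center G) * (P : Subgroup G).index) :
    (P : Subgroup G).Normal := by
  classical
  have hs1 := step1 P h
  set Z : Subgroup G := (P : Subgroup G) ⊓ center G with hZ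
  set C : Subgroup G := centralizer ((P : Subgroup G) : Set G) with hC
  set a := Nat.card P with ha
  set b := (P : Subgroup G).index with hb
  have hab : a * b = Nat.card G := (P : Subgroup G).card_mul_index
  have hcop : Nat.Coprime a b := P.card_coprime_index
  have ha0 : 0 < a := Nat.card_pos
  obtain ⟨m, hm0, hm1⟩ := Nat.chineseRemainder hcop 0 1
  obtain ⟨m', hm0', hm1'⟩ := Nat.chineseRemainder hcop 1 0
  have hsum : m + m' ≡ 1 [MOD Nat.card G] := by
    rw [← hab]
    refine (Nat.modEq_and_modEq_iff_modEq_mul hcop).1 ⟨?_, ?_⟩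
    · simpa using hm0.add hm0'
    · simpa using hm1.add hm1'
  have hpow : ∀ x : G, x ^ m * x ^ m' = x := by
    intro x
    rw [← pow_add]
    have h1 : x ^ (m + m') = x ^ 1 := by
      rw [pow_eq_pow_iff_modEq]
      exact hsum.of_dvd (orderOf_dvd_natCard x)
    rw [h1, pow_one]
  have ham : a ∣ m := (Nat.modEq_zero_iff_dvd).1 hm0
  have hbm' : b ∣ m' := (Nat.modEq_zero_iff_dvd).1 hm1'
  have hxm : ∀ x : G, (x ^ m) ^ b = 1 := by
    intro x
    obtain ⟨t, ht⟩ := ham
    rw [← pow_mul, ht, mul_right_comm, hab, pow_mul, pow_card_eq_one', one_pow]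
  have hxm' : ∀ x : G, (x ^ m') ^ a = 1 := by
    intro x
    obtain ⟨t, ht⟩ := hbm'
    have : b * t * a = (a * b) * t := by ring
    rw [← pow_mul, ht, this, hab, pow_mul, pow_card_eq_one', one_pow]
  have hPa : ∀ w ∈ (P : Subgroup G), w ^ a = 1 := by
    intro w hw
    have := pow_card_eq_one' (x := (⟨w, hw⟩ : (P : Subgroup G)))
    exact congrArg Subtype.val this
  have hmP : ∀ w : G, w ^ a = 1 → w ^ m = 1 := by
    intro w hw
    obtain ⟨t, ht⟩ := ham
    rw [ht, pow_mul, hw, one_pow]
  have hmV : ∀ v : G, v ^ b = 1 → v ^ m = v := by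
    intro v hv
    have h1 : v ^ m = v ^ 1 := by
      rw [pow_eq_pow_iff_modEq]
      exact hm1.of_dvd (orderOf_dvd_of_pow_eq_one hv)
    rw [h1, pow_one]
  let V : Set G := {v | v ∈ Dp G p ∧ v ^ b = 1}
  -- p-parts of elements of Dp
  have hpart : ∀ x ∈ Dp G p, x ^ m' ∈ Z := by
    intro x hx
    obtain ⟨g, hg⟩ := exists_conj P hx
    have h1 : (g * x * g⁻¹) ^ m' ∈ C := C.pow_mem hg _
    have h2 : (g * x * g⁻¹) ^ m' ∈ (P : Subgroup G) := mem_of_commute P (hxm' _) h1
    have h3 : (g * x * g⁻¹) ^ m' ∈ Z := by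
      rw [← hs1]
      exact ⟨h2, h1⟩
    have h4 : (g * x * g⁻¹) ^ m' = g * x ^ m' * g⁻¹ := conj_pow
    rw [h4] at h3
    have h5 := mem_center_iff.1 (h3.2) g
    have h6 : x ^ m' = g * x ^ m' * g⁻¹ := by
      have h7 : g * x ^ m' * g⁻¹ * g = g * (g * x ^ m' * g⁻¹) := h5.symm
      have h8 : g * x ^ m' = g * (g * x ^ m' * g⁻¹) := by
        rw [← h7]; group
      exact mul_left_cancel h8
    rw [h6]
    exact h3
  have hVb : b ≤ Nat.card V := by
    let f : Dp G p → V × Z := fun x =>
      (⟨x.1 ^ m, Dp_of x.2 (fun g hg => (Commute.pow_right (show Commute g x.1 from hg) m)), hxm _⟩,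
        ⟨x.1 ^ m', hpart _ x.2⟩)
    have hf : Function.Injective f := by
      intro x y hxy
      have h1 := congrArg (fun q : V × Z => q.1.1) hxy
      have h2 := congrArg (fun q : V × Z => q.2.1) hxy
      refine Subtype.ext ?_
      rw [← hpow x.1, ← hpow y.1]
      exact congrArg₂ (· * ·) h1 h2
    have h1 := Nat.card_le_card_of_injective f hf
    rw [Nat.card_prod, h, mul_comm] at h1
    exact Nat.le_of_mul_le_mul_right h1 Nat.card_pos
  have hch : ∀ v : V, ∃ g : G, g * v.1 * g⁻¹ ∈ C := fun v => exists_conj P v.2.1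
  choose c hc using hch
  have hcomm : ∀ (v : V) (w : G), w ∈ (P : Subgroup G) → Commute v.1 ((c v)⁻¹ * w * c v) := by
    intro v w hw
    have h1 : w * (c v * v.1 * (c v)⁻¹) = (c v * v.1 * (c v)⁻¹) * w := (mem_centralizer_iff.1 (hc v)) w hw
    change v.1 * ((c v)⁻¹ * w * c v) = (c v)⁻¹ * w * c v * v.1
    have h2 : v.1 * ((c v)⁻¹ * w * c v) = (c v)⁻¹ * ((c v * v.1 * (c v)⁻¹) * w) * c v := by group
    rw [h2, ← h1]
    group
  have hconjpow : ∀ (g w : G) (n : ℕ), (g⁻¹ * w * g) ^ n = g⁻¹ * w ^ n * g := by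
    intro g w n
    have := conj_pow (a := g⁻¹) (b := w) (i := n)
    simpa using this
  let F : V × (P : Subgroup G) → G := fun q => q.1.1 * ((c q.1)⁻¹ * q.2.1 * c q.1)
  have hFm : ∀ q, (F q) ^ m = q.1.1 := by
    intro q
    change (q.1.1 * ((c q.1)⁻¹ * q.2.1 * c q.1)) ^ m = _
    rw [(hcomm q.1 q.2.1 q.2.2).mul_pow, hmV _ q.1.2.2, hconjpow, hmP _ (hPa _ q.2.2)]
    simp
  have hF : Function.Injective F := by
    rintro ⟨v, w⟩ ⟨v', w'⟩ hq
    have h1 : v.1 = v'.1 := by
      have := hFm (v, w)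
      rw [hq, hFm (v', w')] at this
      exact this.symm
    have h2 : v = v' := Subtype.ext h1
    subst h2
    have h3 : v.1 * ((c v)⁻¹ * w.1 * c v) = v.1 * ((c v)⁻¹ * w'.1 * c v) := hq
    have h4 : w.1 = w'.1 := by
      have h5 := mul_left_cancel h3
      have h6 := mul_right_cancel h5
      exact mul_left_cancel h6
    have h7 : w = w' := Subtype.ext h4
    rw [h7]
  have hFs : Function.Surjective F := by
    have h1 : Nat.card G ≤ Nat.card (V × (P : Subgroup G)) := by
      rw [Nat.card_prod, ← hab, mul_comm]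
      exact Nat.mul_le_mul_right _ hVb
    exact ((Nat.bijective_iff_injective_and_card F).2 ⟨hF, le_antisymm (Nat.card_le_card_of_injective F hF) h1⟩).2
  obtain ⟨one, hone⟩ : ∃ o : V, o.1 = 1 := by
    obtain ⟨q, hq⟩ := hFs 1
    refine ⟨q.1, ?_⟩
    have := hFm q
    rw [hq, one_pow] at this
    exact this.symm
  have key : ∀ w : G, w ^ a = 1 → c one * w * (c one)⁻¹ ∈ (P : Subgroup G) := by
    intro w hw
    obtain ⟨⟨v, u⟩, hq⟩ := hFs w
    have h1 : v.1 = 1 := by
      have := hFm (v, u)
      rw [hq, hmP w hw] at this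
      exact this.symm
    have h2 : v = one := Subtype.ext (h1.trans hone.symm)
    subst h2
    have h3 : v.1 * ((c v)⁻¹ * u.1 * c v) = w := hq
    rw [h1, one_mul] at h3
    rw [← h3]
    have h4 : c v * ((c v)⁻¹ * u.1 * c v) * (c v)⁻¹ = u.1 := by group
    rw [h4]
    exact u.2
  constructor
  intro w hw g
  have h1 : (((c one)⁻¹ * g) * w * ((c one)⁻¹ * g)⁻¹) ^ a = 1 := by
    rw [conj_pow, hPa w hw]
    simp
  have h2 := key _ h1
  have h3 : c one * (((c one)⁻¹ * g) * w * ((c one)⁻¹ * g)⁻¹) * (c one)⁻¹ = g * w * g⁻¹ := by group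
  rwa [h3] at h2

/-- in a nilpotent group the count is as required -/
theorem nilp_card (hN : Group.IsNilpotent G) (P : Sylow p G) :
    Nat.card (Dp G p) = Nat.card ↥((P : Subgroup G) ⊓ center G) * (P : Subgroup G).index := by
  classical
  have hnorm : ∀ (q : ℕ) (_ : Fact q.Prime) (Q : Sylow q G), (Q : Subgroup G).Normal :=
    (Group.isNilpotent_of_finite_tfae.out 0 3).1 hN
  haveI := hnorm p hp P
  set C : Subgroup G := centralizer ((P : Subgroup G) : Set G) with hC
  have hcom : ∀ (q : ℕ) (_ : Fact q.Prime) (Q : Sylow q G), q ≠ p → ∀ x ∈ (P : Subgroup G), ∀ y ∈ (Q : Subgroup G),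
      x * y = y * x := by
    intro q hq Q hqp x hx y hy
    haveI := hnorm q hq Q
    have hd : Disjoint (P : Subgroup G) (Q : Subgroup G) := by
      refine IsPGroup.disjoint_of_ne p q hqp.symm _ _ P.2 Q.2
    exact Subgroup.commute_of_normal_of_disjoint _ _ inferInstance inferInstance hd x y hx hy
  have hDC : Dp G p = (C : Set G) := by
    ext x
    constructor
    · intro hx
      obtain ⟨g, hg⟩ := exists_conj P hx
      haveI : C.Normal := by rw [hC]; infer_instance
      have := (inferInstance : C.Normal).conj_mem _ hg g⁻¹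
      have h2 : g⁻¹ * (g * x * g⁻¹) * g⁻¹⁻¹ = x := by group
      rw [h2] at this
      exact this
    · intro hx
      exact mem_Dp_of_mem P hx
  have hPC : (P : Subgroup G) ⊓ C = (P : Subgroup G) ⊓ center G := by
    refine le_antisymm (le_inf inf_le_left ?_) (inf_le_inf_left _ (center_le_centralizer _))
    rintro x ⟨hx, hxC⟩
    have h1 : (centralizer ({x} : Set G)).index = 1 := by
      rw [Nat.eq_one_iff_not_exists_prime_dvd]
      intro q hq hd
      haveI : Fact q.Prime := ⟨hq⟩
      let Q : Sylow q G := default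
      have h2 : (Q : Subgroup G) ≤ centralizer ({x} : Set G) := by
        intro y hy
        rw [mem_centralizer_singleton_iff]
        by_cases hqp : q = p
        · subst hqp
          have hQn := hnorm q inferInstance Q
          have : (Q : Subgroup G) ≤ P := Q.2.le_sylow_of_normal P
          exact (mem_centralizer_iff.1 hxC) y (this hy)
        · exact (hcom q inferInstance Q hqp x hx y hy).symm
      exact Q.not_dvd_index (hd.trans (index_dvd_of_le h2))
    rw [index_eq_one] at h1
    rw [mem_center_iff]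
    intro g
    have : g ∈ centralizer ({x} : Set G) := by rw [h1]; trivial
    rw [mem_centralizer_singleton_iff] at this
    exact this
  have hsup : C ⊔ (P : Subgroup G) = ⊤ := by
    rw [← index_eq_one, Nat.eq_one_iff_not_exists_prime_dvd]
    intro q hq hd
    haveI : Fact q.Prime := ⟨hq⟩
    let Q : Sylow q G := default
    have h2 : (Q : Subgroup G) ≤ C ⊔ (P : Subgroup G) := by
      by_cases hqp : q = p
      · subst hqp
        have hQn := hnorm q inferInstance Q
        have : (Q : Subgroup G) ≤ P := Q.2.le_sylow_of_normal P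
        exact this.trans le_sup_right
      · refine le_trans ?_ le_sup_left
        intro y hy
        rw [hC, mem_centralizer_iff]
        intro x hx
        exact hcom q inferInstance Q hqp x hx y hy
    exact Q.not_dvd_index (hd.trans (index_dvd_of_le h2))
  have hrel : (P : Subgroup G).index = (P : Subgroup G).relIndex C := by
    rw [← relIndex_top_right, ← hsup, relIndex_sup_right]
  have h5 : Nat.card (Dp G p) = Nat.card C := by rw [hDC]; rfl
  rw [h5, ← hPC, hrel, ← inf_relIndex_right]
  have h6 := relIndex_mul_relIndex ⊥ ((P : Subgroup G) ⊓ C) C bot_le inf_le_right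
  rw [relIndex_bot_left, relIndex_bot_left] at h6
  exact h6.symm

theorem card_sum (q : ℕ → Prop) [DecidablePred q] :
    Nat.card {x : G // q (centralizer ({x} : Set G)).index} =
      ∑ᶠ C : ConjClasses G, if q (Nat.card C.carrier) then Nat.card C.carrier else 0 := by
  classical
  haveI : Fintype G := Fintype.ofFinite G
  haveI : Fintype (ConjClasses G) := Fintype.ofFinite _
  rw [finsum_eq_sum_of_fintype, Nat.card_eq_fintype_card, Fintype.card_subtype,
    Finset.card_eq_sum_card_fiberwise (f := ConjClasses.mk) (t := Finset.univ) (fun x _ => Finset.mem_coe.2 (Finset.mem_univ _))]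
  refine Finset.sum_congr rfl fun C _ => ?_
  have hcar : ∀ x ∈ C.carrier, (centralizer ({x} : Set G)).index = Nat.card C.carrier := by
    intro x hx
    rw [ConjClasses.mem_carrier_iff_mk_eq] at hx
    rw [← hx]
    exact (CfsgLib.FgClass.ncard_carrier x).symm
  split_ifs with hq
  · rw [Nat.card_coe_set_eq, Set.ncard_eq_toFinset_card']
    congr 1
    ext x
    simp only [Finset.mem_filter, Finset.mem_univ, true_and, Set.mem_toFinset]
    constructor
    · rintro ⟨-, h⟩
      exact ConjClasses.mem_carrier_iff_mk_eq.2 h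
    · intro h
      refine ⟨?_, ConjClasses.mem_carrier_iff_mk_eq.1 h⟩
      rw [hcar x h]
      exact hq
  · rw [Finset.card_eq_zero, Finset.filter_eq_empty_iff]
    intro x hx h
    rw [Finset.mem_filter] at hx
    apply hq
    rw [← hcar x (ConjClasses.mem_carrier_iff_mk_eq.2 h)]
    exact hx.2

theorem transfer {H : Type*} [Group H] [Finite H]
    (h : ∀ k : ℕ, Nat.card {C : ConjClasses G // Nat.card C.carrier = k} =
      Nat.card {C : ConjClasses H // Nat.card C.carrier = k}) (q : ℕ → Prop) :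
    Nat.card {x : G // q (centralizer ({x} : Set G)).index} =
      Nat.card {x : H // q (centralizer ({x} : Set H)).index} := by
  classical
  have h1 : ∀ k : ℕ, Nonempty ({C : ConjClasses G // Nat.card C.carrier = k} ≃
      {C : ConjClasses H // Nat.card C.carrier = k}) := fun k => Finite.card_eq.1 (h k)
  let e := fun k => (h1 k).some
  let E : ConjClasses G ≃ ConjClasses H :=
    (Equiv.sigmaFiberEquiv (fun C : ConjClasses G => Nat.card C.carrier)).symm.trans
      ((Equiv.sigmaCongrRight e).trans (Equiv.sigmaFiberEquiv (fun C : ConjClasses H => Nat.card C.carrier)))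
  have hE : ∀ C, Nat.card (E C).carrier = Nat.card C.carrier := by
    intro C
    exact (e (Nat.card C.carrier) ⟨C, rfl⟩).2
  rw [card_sum, card_sum]
  refine finsum_eq_of_bijective E E.bijective ?_
  intro C
  rw [hE]

theorem main {H : Type*} [Group H] [Finite H] (hH : Group.IsNilpotent H)
    (h : ∀ k : ℕ, Nat.card {C : ConjClasses G // Nat.card C.carrier = k} =
      Nat.card {C : ConjClasses H // Nat.card C.carrier = k}) : Group.IsNilpotent G := by
  classical
  have hT := fun q : ℕ → Prop => transfer h q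
  have hcardG : Nat.card G = Nat.card H := by
    have := hT (fun _ => True)
    rw [Nat.card_congr (Equiv.subtypeUnivEquiv (fun _ => trivial)),
      Nat.card_congr (Equiv.subtypeUnivEquiv (fun _ => trivial))] at this
    exact this
  have hcen : ∀ (K : Type _) [Group K] [Finite K], Nat.card {x : K // (centralizer ({x} : Set K)).index = 1} = Nat.card (center K) := by
    intro K _ _
    refine Nat.card_congr (Equiv.subtypeEquivRight ?_)
    intro x
    rw [index_eq_one, mem_center_iff, eq_top_iff]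
    constructor
    · intro h1 g
      have := h1 (mem_top g)
      rwa [mem_centralizer_singleton_iff] at this
    · intro h1 g _
      rw [mem_centralizer_singleton_iff]
      exact h1 g
  have hcen' : ∀ (K : Type _) [Group K] [Finite K], Nat.card {x : K // (centralizer ({x} : Set K)).index = 1} = Nat.card (center K) := by
    intro K _ _
    refine Nat.card_congr (Equiv.subtypeEquivRight ?_)
    intro x
    rw [index_eq_one, mem_center_iff, eq_top_iff]
    constructor
    · intro h1 g
      have := h1 (mem_top g)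
      rwa [mem_centralizer_singleton_iff] at this
    · intro h1 g _
      rw [mem_centralizer_singleton_iff]
      exact h1 g
  have hcenter : Nat.card (center G) = Nat.card (center H) := by
    have := hT (fun n => n = 1)
    rwa [hcen G, hcen' H] at this
  refine (Group.isNilpotent_of_finite_tfae.out 0 3).2 ?_
  intro p hp P
  refine normal_of P ?_
  let Q : Sylow p H := default
  have h1 := hT (fun n => ¬ p ∣ n)
  have h2 : Nat.card (Dp G p) = Nat.card (Dp H p) := h1
  have hPQ : Nat.card P = Nat.card Q := by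
    rw [P.card_eq_multiplicity, Q.card_eq_multiplicity, hcardG]
  have hind : (P : Subgroup G).index = (Q : Subgroup H).index := by
    have h3 := (P : Subgroup G).card_mul_index
    have h4 := (Q : Subgroup H).card_mul_index
    have h5 : Nat.card (P : Subgroup G) = Nat.card (Q : Subgroup H) := hPQ
    rw [h5, hcardG, ← h4] at h3
    exact Nat.eq_of_mul_eq_mul_left Nat.card_pos h3
  rw [h2, nilp_card hH Q, card_inf_center, card_inf_center, hcenter, hind]

end CfsgLib.CT28
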