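import Cfsg.Agent.LibDade4
import Cfsg.Agent.LibCharInt

set_option autoImplicit false
set_option linter.all false

/-! Solvable groups embed in central type factor groups. -/

open scoped ComplexConjugate
open Cfsg CfsgLib.CharBasic CfsgLib.CharIndA CfsgLib.Clifford

namespace CfsgLib.CType4

universe u

/-- a nondegenerate normalized cocycle -/
def Good (Z : Type) [CommGroup Z] (Γ : Type u) [Group Γ] : Prop :=
  ∃ α : Γ → Γ → Z, (∀ a b c, α a b * α (a * b) c = α b c * α a (b * c)) ∧
    (∀ a, α a 1 = 1) ∧ (∀ a, α 1 a = 1) ∧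
    ∀ a, a ≠ 1 → ∃ b, a * b = b * a ∧ α a b ≠ α b a

theorem Good.step {Z : Type} [CommGroup Z] {Γ Q : Type u} [Group Γ] [Group Q] [Fintype Q]
    [DecidableEq Q] (h : Good Z Γ) (hsep : ∀ q : Q, q ≠ 1 → ∃ f : Q →* Z, f q ≠ 1) :
    Good Z ((Γ ≀ᵣ Q) × (Q →* Z)) := by
  obtain ⟨α, hco, h1, h1', hnd⟩ := h
  refine ⟨fun A B => (∏ x, α (A.1.left x) (B.1.left (A.1.right⁻¹ * x))) * B.2 A.1.right,
    ?_, ?_, ?_, ?_⟩
  · rintro ⟨⟨a, q⟩, f⟩ ⟨⟨b, r⟩, g⟩ ⟨⟨c, s⟩, k⟩
    change ((∏ x, α (a x) (b (q⁻¹ * x))) * g q) *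
        ((∏ x, α (a x * b (q⁻¹ * x)) (c ((q * r)⁻¹ * x))) * k (q * r)) =
      ((∏ x, α (b x) (c (r⁻¹ * x))) * k r) *
        ((∏ x, α (a x) (b (q⁻¹ * x) * c (r⁻¹ * (q⁻¹ * x)))) * (g q * k q))
    have e1 : ∏ x, α (b x) (c (r⁻¹ * x)) = ∏ x, α (b (q⁻¹ * x)) (c (r⁻¹ * (q⁻¹ * x))) := by
      symm
      exact Fintype.prod_equiv (Equiv.mulLeft q⁻¹) _ _ fun x => rfl
    have e2 : (∏ x, α (a x) (b (q⁻¹ * x))) * (∏ x, α (a x * b (q⁻¹ * x)) (c ((q * r)⁻¹ * x))) =
        (∏ x, α (b (q⁻¹ * x)) (c (r⁻¹ * (q⁻¹ * x)))) *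
          ∏ x, α (a x) (b (q⁻¹ * x) * c (r⁻¹ * (q⁻¹ * x))) := by
      rw [← Finset.prod_mul_distrib, ← Finset.prod_mul_distrib]
      refine Finset.prod_congr rfl fun x _ => ?_
      rw [mul_inv_rev, mul_assoc r⁻¹ q⁻¹ x]
      exact hco _ _ _
    rw [e1, mul_mul_mul_comm, e2, mul_mul_mul_comm _ (k r), map_mul]
    congr 1
    rw [mul_comm (k r), mul_assoc]
  · rintro ⟨⟨a, q⟩, f⟩
    change (∏ x, α (a x) 1) * (1 : Z) = 1
    simp [h1]
  · rintro ⟨⟨a, q⟩, f⟩
    change (∏ x, α 1 (a (1⁻¹ * x))) * f 1 = 1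
    simp [h1']
  · rintro ⟨⟨a, q⟩, f⟩ hne
    by_cases hq : q = 1
    · subst hq
      by_cases ha : ∃ x₀, a x₀ ≠ 1
      · obtain ⟨x₀, hx₀⟩ := ha
        obtain ⟨b, hb1, hb2⟩ := hnd (a x₀) hx₀
        have hcomm : ∀ x, a x * Function.update (1 : Q → Γ) x₀ b x =
            Function.update (1 : Q → Γ) x₀ b x * a x := by
          intro x
          by_cases hx : x = x₀
          · subst hx
            rw [Function.update_self]; exact hb1
          · rw [Function.update_of_ne hx]; simp
        refine ⟨(⟨Function.update 1 x₀ b, 1⟩, 1), ?_, ?_⟩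
        · apply Prod.ext
          · apply RegularWreathProduct.ext
            · ext x
              change a x * Function.update (1 : Q → Γ) x₀ b (1⁻¹ * x) =
                Function.update (1 : Q → Γ) x₀ b x * a (1⁻¹ * x)
              rw [inv_one, one_mul]
              exact hcomm x
            · rfl
          · change f * 1 = 1 * f
            rw [mul_one, one_mul]
        · change (∏ x, α (a x) (Function.update (1 : Q → Γ) x₀ b (1⁻¹ * x))) * (1 : Z) ≠
            (∏ x, α (Function.update (1 : Q → Γ) x₀ b x) (a (1⁻¹ * x))) * f 1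
          rw [map_one, mul_one, mul_one]
          simp only [inv_one, one_mul]
          rw [← Finset.mul_prod_erase Finset.univ _ (Finset.mem_univ x₀),
            ← Finset.mul_prod_erase Finset.univ (fun x => α (Function.update (1 : Q → Γ) x₀ b x) (a x))
              (Finset.mem_univ x₀), Function.update_self]
          have e1 : ∏ x ∈ Finset.univ.erase x₀, α (a x) (Function.update (1 : Q → Γ) x₀ b x) = 1 := by
            apply Finset.prod_eq_one
            intro x hx
            rw [Function.update_of_ne (Finset.ne_of_mem_erase hx)]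
            exact h1 _
          have e2 : ∏ x ∈ Finset.univ.erase x₀, α (Function.update (1 : Q → Γ) x₀ b x) (a x) = 1 := by
            apply Finset.prod_eq_one
            intro x hx
            rw [Function.update_of_ne (Finset.ne_of_mem_erase hx)]
            exact h1' _
          rw [e1, e2, mul_one, mul_one]
          exact hb2
      · push Not at ha
        have ha' : a = 1 := funext ha
        subst ha'
        have hf : f ≠ 1 := by
          rintro rfl
          exact hne rfl
        obtain ⟨r, hr⟩ : ∃ r, f r ≠ 1 := by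
          by_contra hcon
          push Not at hcon
          exact hf (MonoidHom.ext hcon)
        refine ⟨(⟨1, r⟩, 1), ?_, ?_⟩
        · apply Prod.ext
          · apply RegularWreathProduct.ext
            · ext x
              change (1 : Γ) * 1 = 1 * 1
              rfl
            · change 1 * r = r * 1
              rw [one_mul, mul_one]
          · change f * 1 = 1 * f
            rw [mul_one, one_mul]
        · change (∏ x : Q, α 1 1) * (1 : Z) ≠ (∏ x : Q, α 1 1) * f r
          rw [h1, Finset.prod_const_one, one_mul, one_mul]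
          exact hr.symm
    · obtain ⟨g, hg⟩ := hsep q hq
      refine ⟨(1, g), ?_, ?_⟩
      · apply Prod.ext
        · change (⟨a, q⟩ : Γ ≀ᵣ Q) * 1 = 1 * ⟨a, q⟩
          rw [mul_one, one_mul]
        · change f * g = g * f
          rw [mul_comm]
      · change (∏ x, α (a x) 1) * g q ≠ (∏ x, α 1 (a (1⁻¹ * x))) * f 1
        simp only [h1, h1', Finset.prod_const_one, one_mul, map_one]
        exact hg

theorem exists_good (Z : Type) [CommGroup Z] [Finite Z] (n : ℕ) : ∀ (G : Type u) [Group G] [Finite G],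
    Group.IsSolvable G → Nat.card G = n → (∀ p : ℕ, p.Prime → p ∣ Nat.card G → p ∣ Nat.card Z) →
    ∃ (Γ : Type u) (_ : Group Γ) (_ : Finite Γ), Good Z Γ ∧ (∃ f : G →* Γ, Function.Injective f) ∧
      ∀ p : ℕ, p.Prime → p ∣ Nat.card Γ → p ∣ Nat.card Z := by
  induction n using Nat.strong_induction_on with
  | _ n ih =>
    intro G _ _ hsolv hn hpr
    haveI := hsolv
    rcases subsingleton_or_nontrivial G with hG | hG
    · refine ⟨G, inferInstance, inferInstance, ⟨fun _ _ => 1, ?_, ?_, ?_, ?_⟩,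
        ⟨MonoidHom.id G, fun x y h => h⟩, hpr⟩
      · intro a b c; rfl
      · intro a; rfl
      · intro a; rfl
      · intro a ha
        exact absurd (Subsingleton.elim _ _) ha
    · obtain ⟨N, r, hN, hr, hp'⟩ := CfsgLib.FgHallCnt.exists_normal_prime_index (H := G)
      have hp : N.index.Prime := by rw [hp']; exact hr
      haveI := hN
      have hlt : Nat.card N < n := by
        have h1 := Subgroup.card_mul_index N
        rw [← hn, ← h1]
        have h2 := hp.two_le
        have h3 : 0 < Nat.card N := Nat.card_pos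
        nlinarith
      obtain ⟨Γ, hΓ1, hΓ2, hΓ3, ⟨j, hj⟩, hΓ4⟩ := ih (Nat.card N) hlt N inferInstance rfl
        (fun p hp hd => hpr p hp (hd.trans (Subgroup.card_subgroup_dvd_card N)))
      haveI : Fintype (G ⧸ N) := Fintype.ofFinite _
      classical
      have hQ : Nat.card (G ⧸ N) = r := by rw [← Subgroup.index_eq_card]; exact hp'
      have hrZ : r ∣ Nat.card Z := hpr r hr (by rw [← hp']; exact Subgroup.index_dvd_card N)
      haveI : Fact r.Prime := ⟨hr⟩
      obtain ⟨z, hz⟩ := exists_prime_orderOf_dvd_card' r hrZ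
      have hsep : ∀ q : G ⧸ N, q ≠ 1 → ∃ f : (G ⧸ N) →* Z, f q ≠ 1 := by
        intro q hq
        have e : (G ⧸ N) ≃* Subgroup.zpowers z :=
          mulEquivOfPrimeCardEq (p := r) hQ (by rw [Nat.card_zpowers, hz])
        refine ⟨(Subgroup.zpowers z).subtype.comp e.toMonoidHom, ?_⟩
        intro h
        apply hq
        apply e.injective
        apply Subtype.ext
        rw [map_one]
        exact h
      obtain ⟨f, hf⟩ := CfsgLib.Dade4.embed N j hj
      haveI : Finite ((G ⧸ N) →* Z) :=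
        Finite.of_injective (fun f : (G ⧸ N) →* Z => (f : (G ⧸ N) → Z)) DFunLike.coe_injective
      refine ⟨(Γ ≀ᵣ (G ⧸ N)) × ((G ⧸ N) →* Z), inferInstance, inferInstance, hΓ3.step hsep,
        ⟨(MonoidHom.inl _ _).comp f, ?_⟩, ?_⟩
      · intro x y hxy
        apply hf
        exact congrArg Prod.fst hxy
      · intro p hp hd
        rw [Nat.card_prod, RegularWreathProduct.card, hp.dvd_mul, hp.dvd_mul] at hd
        rcases hd with (hd | hd) | hd
        · exact hΓ4 p hp (hp.dvd_of_dvd_pow hd)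
        · rw [hQ] at hd
          exact hd.trans hrZ
        · haveI : Fact p.Prime := ⟨hp⟩
          obtain ⟨f, hf⟩ := exists_prime_orderOf_dvd_card' p hd
          have h1 : f ^ r = 1 := by
            apply MonoidHom.ext
            intro x
            rw [MonoidHom.pow_apply, ← map_pow, ← hQ, pow_card_eq_one', map_one]
            rfl
          have h2 := orderOf_dvd_of_pow_eq_one h1
          rw [hf] at h2
          exact h2.trans hrZ

/-! ### the extension -/

/-- central extension -/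
structure CExt (Z : Type) (Γ : Type u) : Type u where
  z : Z
  g : Γ

theorem CExt.ext' {Z : Type} {Γ : Type u} {a b : CExt Z Γ} (h1 : a.z = b.z) (h2 : a.g = b.g) :
    a = b := by
  cases a; cases b
  simp only at h1 h2
  rw [h1, h2]

def extGroup {Z : Type} [CommGroup Z] {Γ : Type u} [Group Γ] (α : Γ → Γ → Z)
    (hco : ∀ a b c, α a b * α (a * b) c = α b c * α a (b * c)) (h1 : ∀ a, α a 1 = 1)
    (h1' : ∀ a, α 1 a = 1) : Group (CExt Z Γ) :=
  { mul := fun a b => ⟨a.z * b.z * α a.g b.g, a.g * b.g⟩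
    one := ⟨1, 1⟩
    inv := fun a => ⟨a.z⁻¹ * (α a.g⁻¹ a.g)⁻¹, a.g⁻¹⟩
    mul_assoc := by
      intro a b c
      apply CExt.ext'
      · change (a.z * b.z * α a.g b.g) * c.z * α (a.g * b.g) c.g =
          a.z * (b.z * c.z * α b.g c.g) * α a.g (b.g * c.g)
        have := hco a.g b.g c.g
        calc (a.z * b.z * α a.g b.g) * c.z * α (a.g * b.g) c.g
            = (a.z * b.z * c.z) * (α a.g b.g * α (a.g * b.g) c.g) := by
              simp only [mul_assoc, mul_comm, mul_left_comm]
          _ = (a.z * b.z * c.z) * (α b.g c.g * α a.g (b.g * c.g)) := by rw [this]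
          _ = _ := by simp only [mul_assoc]
      · exact mul_assoc _ _ _
    one_mul := by
      intro a
      apply CExt.ext'
      · change 1 * a.z * α 1 a.g = a.z
        rw [h1', one_mul, mul_one]
      · exact one_mul _
    mul_one := by
      intro a
      apply CExt.ext'
      · change a.z * 1 * α a.g 1 = a.z
        rw [h1, mul_one, mul_one]
      · exact mul_one _
    inv_mul_cancel := by
      intro a
      apply CExt.ext'
      · change (a.z⁻¹ * (α a.g⁻¹ a.g)⁻¹) * a.z * α a.g⁻¹ a.g = 1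
        rw [mul_right_comm a.z⁻¹, inv_mul_cancel, one_mul, inv_mul_cancel]
      · exact inv_mul_cancel _ }

theorem ctype {Z : Type} [CommGroup Z] [Finite Z] (lam : Z →* ℂˣ) (hlam : Function.Injective lam)
    {Γ : Type u} [Group Γ] [Finite Γ] (h : Good Z Γ) :
    ∃ (H : Type u) (_ : Group H) (_ : Finite H) (χ : IrrCharacter H),
      (∀ h : H, (χ : H → ℂ) h = (χ : H → ℂ) 1 → h = 1) ∧
      (charDegree (χ : H → ℂ)) ^ 2 = (Subgroup.center H).index ∧
      (∃ f : Γ →* H ⧸ Subgroup.center H, Function.Injective f) ∧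
      Nat.card H = Nat.card Z * Nat.card Γ ∧ Nat.card (Subgroup.center H) = Nat.card Z := by
  classical
  obtain ⟨α, hco, h1, h1', hnd⟩ := h
  letI : Group (CExt Z Γ) := extGroup α hco h1 h1'
  have hmul : ∀ a b : CExt Z Γ, a * b = ⟨a.z * b.z * α a.g b.g, a.g * b.g⟩ := fun a b => rfl
  have hone : (1 : CExt Z Γ) = ⟨1, 1⟩ := rfl
  have eq : CExt Z Γ ≃ Z × Γ :=
    { toFun := fun a => (a.z, a.g)
      invFun := fun p => ⟨p.1, p.2⟩
      left_inv := fun a => rfl
      right_inv := fun p => rfl }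
  haveI : Finite (CExt Z Γ) := Finite.of_equiv _ eq.symm
  haveI : Fintype (CExt Z Γ) := Fintype.ofFinite _
  have hcomm : ∀ (a : CExt Z Γ) (b : Γ), a.g * b = b * a.g → α a.g b ≠ α b a.g →
      a * ⟨1, b⟩ ≠ ⟨1, b⟩ * a := by
    intro a b hb1 hb2 heq
    apply hb2
    have := congrArg CExt.z heq
    rw [hmul, hmul] at this
    simpa using this
  have hcen : ∀ a : CExt Z Γ, a ∈ Subgroup.center (CExt Z Γ) ↔ a.g = 1 := by
    intro a
    rw [Subgroup.mem_center_iff]
    constructor
    · intro h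
      by_contra hne
      obtain ⟨b, hb1, hb2⟩ := hnd _ hne
      exact hcomm a b hb1 hb2 (h _).symm
    · intro h b
      rw [hmul, hmul]
      apply CExt.ext'
      · change b.z * a.z * α b.g a.g = a.z * b.z * α a.g b.g
        rw [h, h1, h1', mul_comm a.z]
      · change b.g * a.g = a.g * b.g
        rw [h, mul_one, one_mul]
  haveI : Fintype (Subgroup.center (CExt Z Γ)) := Fintype.ofFinite _
  have ez : Subgroup.center (CExt Z Γ) ≃ Z :=
    { toFun := fun a => a.1.z
      invFun := fun z => ⟨⟨z, 1⟩, (hcen _).2 rfl⟩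
      left_inv := fun a => by
        apply Subtype.ext
        apply CExt.ext'
        · rfl
        · exact ((hcen _).1 a.2).symm
      right_inv := fun z => rfl }
  let θ : Subgroup.center (CExt Z Γ) →* ℂˣ :=
    { toFun := fun a => lam a.1.z
      map_one' := by
        change lam 1 = 1
        exact map_one lam
      map_mul' := by
        intro a b
        change lam (a.1.z * b.1.z * α a.1.g b.1.g) = _
        rw [(hcen _).1 a.2, h1', mul_one, map_mul] }
  have hθ : IsIrrCharacter (Subgroup.center (CExt Z Γ)) (fun a => (θ a : ℂ)) := isIrrCharacter_hom θ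
  obtain ⟨χ, hχ, hne⟩ := exists_above (Subgroup.center (CExt Z Γ)) hθ
  have hres := restrict_of_invariant (inferInstance : (Subgroup.center (CExt Z Γ)).Normal) hχ hθ
    (by
      intro g
      ext a
      rw [cj_apply]
      congr 2
      apply Subtype.ext
      change g * (a : CExt Z Γ) * g⁻¹ = a
      rw [Subgroup.mem_center_iff.1 a.2 g]; group) hne
  have hχ1 : χ 1 ≠ 0 := CfsgLib.CharInt.irr_one_ne_zero hχ
  have hval : ∀ a : Subgroup.center (CExt Z Γ), χ a = (θ a : ℂ) * χ 1 := by
    intro a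
    have e1 := congrFun hres a
    have e2 := congrFun hres 1
    simp only [Pi.smul_apply, smul_eq_mul, map_one, Units.val_one, mul_one] at e1 e2
    have e3 : χ 1 = χ ((1 : Subgroup.center (CExt Z Γ)) : CExt Z Γ) := rfl
    rw [e1, e3, e2, mul_comm]
  have hmulc : ∀ (a : Subgroup.center (CExt Z Γ)) (x : CExt Z Γ), χ (a * x) = (θ a : ℂ) * χ x := by
    intro a x
    rw [char_mul_of_scalar (irr_isCharacter hχ) hχ1 (irr_center hχ a.2) x, hval,
      mul_div_assoc, div_self hχ1, mul_one]
  have hvan : ∀ x : CExt Z Γ, x ∉ Subgroup.center (CExt Z Γ) → χ x = 0 := by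
    intro x hx
    rw [hcen] at hx
    obtain ⟨b, hb1, hb2⟩ := hnd _ hx
    obtain ⟨c, hc⟩ : ∃ c : Subgroup.center (CExt Z Γ), c = ⟨⟨α x.g b * (α b x.g)⁻¹, 1⟩,
      (hcen _).2 rfl⟩ := ⟨_, rfl⟩
    have hx2 : x * ⟨1, b⟩ = c * (⟨1, b⟩ * x) := by
      rw [hc, hmul, hmul, hmul]
      apply CExt.ext'
      · change x.z * 1 * α x.g b = (α x.g b * (α b x.g)⁻¹) * (1 * x.z * α b x.g) * α 1 (b * x.g)
        rw [h1', mul_one, mul_one, one_mul, mul_comm x.z, mul_comm x.z, mul_assoc (α x.g b),
          inv_mul_cancel_left]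
      · change x.g * b = 1 * (b * x.g)
        rw [one_mul, hb1]
    have hx3 : x = c * (⟨1, b⟩ * x * (⟨1, b⟩ : CExt Z Γ)⁻¹) := by
      rw [← mul_assoc, ← hx2, mul_inv_cancel_right]
    have hx4 : χ x = (θ c : ℂ) * χ x := by
      nth_rewrite 1 [hx3]
      rw [hmulc]
      congr 1
      exact irr_classFun hχ x ⟨1, b⟩
    have hθc : (θ c : ℂ) ≠ 1 := by
      intro h
      have h2 : θ c = 1 := Units.ext h
      have h3 : lam (α x.g b * (α b x.g)⁻¹) = 1 := by
        have : θ c = lam (α x.g b * (α b x.g)⁻¹) := by rw [hc]; rfl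
        rw [← this]; exact h2
      have h4 : α x.g b * (α b x.g)⁻¹ = 1 := hlam (by rw [h3, map_one])
      exact hb2 (mul_inv_eq_one.1 h4)
    have h5 : ((θ c : ℂ) - 1) * χ x = 0 := by
      linear_combination -hx4
    rcases mul_eq_zero.1 h5 with h6 | h6
    · exact absurd (sub_eq_zero.1 h6) hθc
    · exact h6
  refine ⟨CExt Z Γ, inferInstance, inferInstance, ⟨χ, hχ⟩, ?_, ?_, ?_, ?_, ?_⟩
  · intro h hh
    change χ h = χ 1 at hh
    have hc : h ∈ Subgroup.center (CExt Z Γ) := by
      by_contra hn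
      exact hχ1 (by rw [← hh, hvan h hn])
    have e1 := hval ⟨h, hc⟩
    change χ h = _ at e1
    rw [hh] at e1
    have e2 : (θ ⟨h, hc⟩ : ℂ) = 1 := by
      have : ((θ ⟨h, hc⟩ : ℂ) - 1) * χ 1 = 0 := by linear_combination -e1
      rcases mul_eq_zero.1 this with h6 | h6
      · exact sub_eq_zero.1 h6
      · exact absurd h6 hχ1
    have e3 : lam h.z = 1 := Units.ext e2
    apply CExt.ext'
    · exact hlam (by rw [e3]; exact (map_one lam).symm)
    · exact (hcen _).1 hc
  · change charDegree χ ^ 2 = _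
    have h1 := irr_inner_self hχ
    rw [inner_self_eq] at h1
    have h2 : (Nat.card (CExt Z Γ) : ℝ)⁻¹ * ∑ g : CExt Z Γ, ‖χ g‖ ^ 2 = 1 := by exact_mod_cast h1
    have hG : (0 : ℝ) < Nat.card (CExt Z Γ) := by exact_mod_cast Nat.card_pos
    have h3 : ∑ g : CExt Z Γ, ‖χ g‖ ^ 2 = Nat.card (CExt Z Γ) := by
      rwa [inv_mul_eq_one₀ hG.ne', eq_comm] at h2
    rw [← Finset.sum_filter_add_sum_filter_not Finset.univ
      (fun g : CExt Z Γ => g ∈ Subgroup.center (CExt Z Γ))] at h3
    have h4 : ∀ g ∈ Finset.univ.filter (fun g : CExt Z Γ => ¬ g ∈ Subgroup.center (CExt Z Γ)),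
        ‖χ g‖ ^ 2 = 0 := by
      intro g hg
      rw [hvan g (Finset.mem_filter.1 hg).2]; simp
    have h5 : ∀ g ∈ Finset.univ.filter (fun x : CExt Z Γ => x ∈ Subgroup.center (CExt Z Γ)),
        ‖χ g‖ ^ 2 = (charDegree χ : ℝ) ^ 2 := by
      intro g hg
      rw [irr_center hχ (Finset.mem_filter.1 hg).2, CfsgLib.CharInt.irr_one_eq_charDegree hχ,
        Complex.natCast_re]
    rw [Finset.sum_congr rfl h4, Finset.sum_congr rfl h5, Finset.sum_const, nsmul_eq_mul,
      Finset.sum_const_zero, add_zero] at h3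
    have h6 : (Finset.univ.filter (fun x : CExt Z Γ => x ∈ Subgroup.center (CExt Z Γ))).card =
        Nat.card (Subgroup.center (CExt Z Γ)) := by
      rw [Nat.card_eq_fintype_card, ← Fintype.card_subtype]
    rw [h6] at h3
    have h7 : Nat.card (Subgroup.center (CExt Z Γ)) * charDegree χ ^ 2 =
        Nat.card (Subgroup.center (CExt Z Γ)) * (Subgroup.center (CExt Z Γ)).index := by
      rw [Subgroup.card_mul_index]
      exact_mod_cast h3
    exact Nat.eq_of_mul_eq_mul_left Nat.card_pos h7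
  · refine ⟨{ toFun := fun g => ((⟨1, g⟩ : CExt Z Γ) : CExt Z Γ ⧸ Subgroup.center (CExt Z Γ))
              map_one' := rfl
              map_mul' := ?_ }, ?_⟩
    · intro a b
      rw [← QuotientGroup.mk_mul, QuotientGroup.eq, hcen]
      change (a * b)⁻¹ * (a * b) = 1
      exact inv_mul_cancel (a * b)
    · intro a b hab
      change ((⟨1, a⟩ : CExt Z Γ) : CExt Z Γ ⧸ Subgroup.center (CExt Z Γ)) = ((⟨1, b⟩ : CExt Z Γ)) at hab
      rw [QuotientGroup.eq, hcen] at hab
      change a⁻¹ * b = 1 at hab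
      rw [inv_mul_eq_one] at hab
      exact hab
  · rw [Nat.card_congr eq, Nat.card_prod]
  · exact Nat.card_congr ez

theorem main {G : Type u} [Group G] [Finite G] (hsolv : Group.IsSolvable G) :
    ∃ (H : Type u) (_ : Group H) (_ : Finite H) (χ : Cfsg.IrrCharacter H),
      (∀ h : H, (χ : H → ℂ) h = (χ : H → ℂ) 1 → h = 1) ∧
      (Cfsg.charDegree (χ : H → ℂ)) ^ 2 = (Subgroup.center H).index ∧
      (∃ f : G →* H ⧸ Subgroup.center H, Function.Injective f) ∧
      (∀ p : ℕ, p.Prime → ((p ∣ Nat.card H ↔ p ∣ Nat.card G) ∧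
        (p ∣ Nat.card (Subgroup.center H) ↔ p ∣ Nat.card G))) ∧
      Squarefree (Nat.card (Subgroup.center H)) := by
  obtain ⟨m, hm⟩ : ∃ m, m = UniqueFactorizationMonoid.radical (Nat.card G) := ⟨_, rfl⟩
  have hm0 : m ≠ 0 := by rw [hm]; exact UniqueFactorizationMonoid.radical_ne_zero
  haveI : NeZero m := ⟨hm0⟩
  have hG0 : Nat.card G ≠ 0 := Nat.card_pos.ne'
  have hmp : ∀ p : ℕ, p.Prime → (p ∣ m ↔ p ∣ Nat.card G) := by
    intro p hp
    have h1 := Nat.primeFactors_radical (Nat.card G)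
    rw [← hm] at h1
    constructor
    · intro h
      have : p ∈ m.primeFactors := Nat.mem_primeFactors.2 ⟨hp, h, hm0⟩
      rw [h1] at this
      exact (Nat.mem_primeFactors.1 this).2.1
    · intro h
      have : p ∈ (Nat.card G).primeFactors := Nat.mem_primeFactors.2 ⟨hp, h, hG0⟩
      rw [← h1] at this
      exact (Nat.mem_primeFactors.1 this).2.1
  haveI : Finite (rootsOfUnity m ℂ) := inferInstance
  have hcard : Nat.card (rootsOfUnity m ℂ) = m := Complex.card_rootsOfUnity m
  obtain ⟨Γ, hΓ1, hΓ2, hΓ3, ⟨f, hf⟩, hΓ4⟩ := exists_good (rootsOfUnity m ℂ) (Nat.card G) G hsolv rfl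
    (fun p hp h => by rw [hcard, hmp p hp]; exact h)
  obtain ⟨H, hH1, hH2, χ, hχ1, hχ2, ⟨F, hF⟩, hH3, hH4⟩ := ctype (rootsOfUnity m ℂ).subtype
    (Subgroup.subtype_injective _) hΓ3
  refine ⟨H, hH1, hH2, χ, hχ1, hχ2, ⟨F.comp f, hF.comp hf⟩, ?_, ?_⟩
  · intro p hp
    rw [hH3, hH4, hcard]
    refine ⟨⟨?_, ?_⟩, hmp p hp⟩
    · intro h
      rcases hp.dvd_mul.1 h with h | h
      · exact (hmp p hp).1 h
      · have := hΓ4 p hp h
        rw [hcard] at this
        exact (hmp p hp).1 this
    · intro h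
      exact ((hmp p hp).2 h).mul_right _
  · rw [hH4, hcard, hm]
    exact UniqueFactorizationMonoid.squarefree_radical

end CfsgLib.CType4
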