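import Mathlib
import Cfsg.Agent.LibFus21Sat2
import Cfsg.Agent.LibCamHer

set_option autoImplicit false

/-! Saturated fusion systems on 2-groups all of whose elements are conjugate to central elements (helper1). -/

namespace CfsgLib.CamHer

open Cfsg Cfsg.FusionSystem CfsgLib.Fus21

variable {Ω : Type*} [Group Ω] {S : Subgroup Ω} {F : FusionSystem S}

/-- conjugacy of elements through some map. -/
def Rel (F : FusionSystem S) (x y : Ω) : Prop :=
  ∃ (P : Subgroup Ω) (φ : P →* Ω) (_ : φ ∈ F.Hom P) (hx : x ∈ P), φ ⟨x, hx⟩ = y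

theorem Rel.left {x y : Ω} (h : Rel F x y) : x ∈ S := by
  obtain ⟨P, φ, hφ, hx, -⟩ := h
  exact le_S hφ hx

theorem Rel.symm {x y : Ω} (h : Rel F x y) : Rel F y x := by
  obtain ⟨P, φ, hφ, hx, rfl⟩ := h
  obtain ⟨ψ, hψ, e⟩ := F.inv_mem hφ
  exact ⟨_, ψ, hψ, ⟨⟨x, hx⟩, rfl⟩, e ⟨x, hx⟩⟩

/-- restriction to the cyclic subgroup -/
theorem Rel.cyc {x y : Ω} (h : Rel F x y) : ∃ φ ∈ F.Hom (Subgroup.zpowers x), φ ⟨x, Subgroup.mem_zpowers x⟩ = y := by
  obtain ⟨P, φ, hφ, hx, rfl⟩ := h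
  have hle : Subgroup.zpowers x ≤ P := by rwa [Subgroup.zpowers_le]
  exact ⟨φ.comp (Subgroup.inclusion hle), restrict_mem hφ hle, rfl⟩

theorem Rel.trans {x y z : Ω} (h : Rel F x y) (h' : Rel F y z) : Rel F x z := by
  obtain ⟨φ, hφ, e⟩ := h.cyc
  obtain ⟨Q, ψ, hψ, hy, e'⟩ := h'
  have hr : ∀ u : Subgroup.zpowers x, φ u ∈ Q := by
    rintro ⟨u, hu⟩
    obtain ⟨n, rfl⟩ := Subgroup.mem_zpowers_iff.1 hu
    have : φ ⟨x ^ n, hu⟩ = y ^ n := by
      rw [← e, ← map_zpow]; rfl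
    rw [this]; exact Subgroup.zpow_mem _ hy n
  refine ⟨_, ψ.comp (φ.codRestrict Q hr), F.comp_mem hφ hψ hr, Subgroup.mem_zpowers x, ?_⟩
  rw [← e']
  show ψ (φ.codRestrict Q hr ⟨x, _⟩) = _
  congr 1
  exact Subtype.ext e

theorem Rel.pow {x y : Ω} (h : Rel F x y) (n : ℕ) : Rel F (x ^ n) (y ^ n) := by
  obtain ⟨P, φ, hφ, hx, rfl⟩ := h
  refine ⟨P, φ, hφ, pow_mem hx n, ?_⟩
  rw [← map_pow]; rfl

theorem Rel.inv {x y : Ω} (h : Rel F x y) : Rel F x⁻¹ y⁻¹ := by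
  obtain ⟨P, φ, hφ, hx, rfl⟩ := h
  refine ⟨P, φ, hφ, inv_mem hx, ?_⟩
  rw [← map_inv]; rfl

theorem Rel.conj {x s : Ω} (hx : x ∈ S) (hs : s ∈ S) : Rel F x (s * x * s⁻¹) :=
  ⟨S, conjHom S s, F.conj_mem le_rfl hs, hx, rfl⟩

variable [Finite S]

/-- extension of maps onto central elements -/
theorem ext_cent (hS : IsPGroup 2 S) (hF : F.IsSaturated 2) {x w : Ω} (h : Rel F x w) (hw : Zc S w) :
    ∃ ψ ∈ F.Hom (centralizerIn S (Subgroup.zpowers x)), ∀ hx : x ∈ centralizerIn S (Subgroup.zpowers x), ψ ⟨x, hx⟩ = w := by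
  obtain ⟨φ, hφ, e⟩ := h.cyc
  have hrS : φ.range ≤ S := range_le hφ
  have hcS : centralizerIn S φ.range = S := by
    apply le_antisymm (centralizerIn_le _ _)
    intro s hs
    rw [mem_centralizerIn]
    refine ⟨hs, ?_⟩
    rintro _ ⟨⟨u, hu⟩, rfl⟩
    obtain ⟨n, rfl⟩ := Subgroup.mem_zpowers_iff.1 hu
    have h1 : φ ⟨x ^ n, hu⟩ = w ^ n := by
      rw [← e, ← map_zpow]; rfl
    rw [h1]
    exact ((show Commute s w from hw.2 s hs).zpow_right n).symm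
  have hfc : F.IsFullyCentralized φ.range := by
    refine ⟨hrS, fun Q _ => ?_⟩
    rw [hcS]
    exact Subgroup.card_le_of_le (centralizerIn_le _ _)
  have hR := sat_fc_receptive hS hF hfc
  obtain ⟨ψ, hψ, hext⟩ := hR.2 _ φ hφ rfl
  have hle := centralizerIn_le_extender S φ
  refine ⟨_, restrict_mem hψ hle, fun hx => ?_⟩
  rw [← e]
  exact hext x (Subgroup.mem_zpowers x) (hle hx)

theorem burnsideF (hS : IsPGroup 2 S) (hF : F.IsSaturated 2) {z z' : Ω} (h : Rel F z z') (hz : Zc S z) (hz' : Zc S z') :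
    ∃ ψ ∈ F.Hom S, ψ ⟨z, hz.1⟩ = z' := by
  obtain ⟨ψ, hψ, e⟩ := ext_cent hS hF h hz'
  have hle : S ≤ centralizerIn S (Subgroup.zpowers z) := by
    intro s hs
    rw [mem_centralizerIn]
    refine ⟨hs, ?_⟩
    intro u hu
    obtain ⟨n, rfl⟩ := Subgroup.mem_zpowers_iff.1 hu
    exact ((show Commute s z from hz.2 s hs).zpow_right n).symm
  exact ⟨_, restrict_mem hψ hle, e (hle hz.1)⟩

theorem map_Zc {ψ : S →* Ω} (hψ : ψ ∈ F.Hom S) {c : Ω} (hc : Zc S c) : Zc S (ψ ⟨c, hc.1⟩) := by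
  have hinj := inj hψ
  have hsurj : ∀ y ∈ S, ∃ u : S, ψ u = y := by
    have h1 : Function.Injective (fun u : S => (⟨ψ u, mem_S hψ u⟩ : S)) := by
      intro a b hab
      exact hinj (congrArg Subtype.val hab)
    have h2 := Finite.surjective_of_injective h1
    intro y hy
    obtain ⟨u, hu⟩ := h2 ⟨y, hy⟩
    exact ⟨u, congrArg Subtype.val hu⟩
  refine ⟨mem_S hψ _, fun y hy => ?_⟩
  obtain ⟨u, rfl⟩ := hsurj y hy
  rw [← map_mul, ← map_mul]
  congr 1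
  exact Subtype.ext (hc.2 u u.2)

theorem not_realF (hS : IsPGroup 2 S) (hF : F.IsSaturated 2) {v : Ω} (hv : Zc S v) (h : Rel F v v⁻¹) : v ^ 2 = 1 := by
  obtain ⟨ψ, hψ, e⟩ := burnsideF hS hF h hv hv.inv
  -- the automorphism
  have hr : ψ.range = S := by
    apply le_antisymm (range_le hψ)
    intro y hy
    have h1 : Function.Injective (fun u : S => (⟨ψ u, mem_S hψ u⟩ : S)) := by
      intro a b hab
      exact inj hψ (congrArg Subtype.val hab)
    obtain ⟨u, hu⟩ := Finite.surjective_of_injective h1 ⟨y, hy⟩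
    exact ⟨u, congrArg Subtype.val hu⟩
  obtain ⟨α, hα, hαψ⟩ := exists_iso hψ hr
  have hαA : (α : MulAut S) ∈ F.autGroup S := (mem_autGroup le_rfl).2 hα
  -- fully automized
  obtain ⟨Q, hQ, hA, -⟩ := hF S le_rfl
  have hQS : Q = S := by
    apply Subgroup.eq_of_le_of_card_ge (conj_le_right hQ)
    rw [conj_card hQ]
  subst hQS
  obtain ⟨-, R, hR⟩ := hA
  have := finite_autGroup F (le_refl Q)
  set β : F.autGroup Q := ⟨α, hαA⟩ with hβ
  obtain ⟨a, m, hm, hom⟩ := Nat.exists_eq_two_pow_mul_odd (n := orderOf β) (orderOf_pos β).ne'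
  have hodd : ∀ k : ℕ, Odd k → (((β ^ k : F.autGroup Q) : MulAut Q) ⟨v, hv.1⟩ : Ω) = v⁻¹ := by
    intro k hk
    obtain ⟨j, rfl⟩ := hk
    have e0 : ((β : MulAut Q) ⟨v, hv.1⟩ : Ω) = v⁻¹ := by
      rw [← e]; exact hαψ _
    have e1 : (β : MulAut Q) ⟨v, hv.1⟩ = ⟨v, hv.1⟩⁻¹ := Subtype.ext e0
    have e2 : ((β ^ 2 : F.autGroup Q) : MulAut Q) ⟨v, hv.1⟩ = ⟨v, hv.1⟩ := by
      rw [SubmonoidClass.coe_pow, pow_two, MulAut.mul_apply, e1, map_inv, e1, inv_inv]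
    have e3 : ∀ j : ℕ, (((β ^ 2) ^ j : F.autGroup Q) : MulAut Q) ⟨v, hv.1⟩ = ⟨v, hv.1⟩ := by
      intro j
      induction j with
      | zero => simp
      | succ j ih =>
        rw [pow_succ, Subgroup.coe_mul, MulAut.mul_apply, e2, ih]
    have e4 : ((β ^ (2 * j + 1) : F.autGroup Q) : MulAut Q) ⟨v, hv.1⟩ = ⟨v, hv.1⟩⁻¹ := by
      rw [pow_succ, pow_mul, Subgroup.coe_mul, MulAut.mul_apply, e1, map_inv, e3]
    rw [e4]; rfl
  have h2 : orderOf (β ^ m) = 2 ^ a := by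
    rw [orderOf_pow, hom, Nat.gcd_eq_right (Dvd.intro_left _ rfl), Nat.mul_div_cancel _ (Odd.pos hm)]
  have h3 : IsPGroup 2 ↥(Subgroup.zpowers (β ^ m)) := by
    apply IsPGroup.of_card (n := a)
    rw [Nat.card_zpowers, h2]
  have hRn : (R : Subgroup (F.autGroup Q)).Normal := by
    rw [hR, autInducedBy_self]
    refine ⟨fun n hn g => ?_⟩
    rw [Subgroup.mem_subgroupOf] at hn ⊢
    rw [mem_Inn] at hn ⊢
    obtain ⟨u, hu, hh⟩ := hn
    refine ⟨((g : MulAut Q) ⟨u, hu⟩ : Q), ((g : MulAut Q) ⟨u, hu⟩).2, fun x => ?_⟩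
    have h5 : ((g * n * g⁻¹ : F.autGroup Q) : MulAut Q) x = (g : MulAut Q) ((n : MulAut Q) ((g : MulAut Q)⁻¹ x)) := rfl
    rw [h5]
    have h6 : (n : MulAut Q) ((g : MulAut Q)⁻¹ x) = ⟨u, hu⟩ * ((g : MulAut Q)⁻¹ x) * ⟨u, hu⟩⁻¹ := Subtype.ext (hh _)
    rw [h6, map_mul, map_mul, map_inv]
    have h7 : (g : MulAut Q) ((g : MulAut Q)⁻¹ x) = x := (g : MulAut Q).apply_symm_apply x
    rw [h7]; rfl
  have h4 := h3.inf_normalizer_sylow R
  have h5 : β ^ m ∈ (R : Subgroup (F.autGroup Q)) := by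
    have hN : Subgroup.normalizer ((R : Subgroup (F.autGroup Q)) : Set (F.autGroup Q)) = ⊤ := Subgroup.normalizer_eq_top_iff.2 hRn
    refine (h4.le ⟨Subgroup.mem_zpowers _, ?_⟩).2
    have : β ^ m ∈ Subgroup.normalizer ((R : Subgroup (F.autGroup Q)) : Set (F.autGroup Q)) := by rw [hN]; trivial
    exact this
  rw [hR, Subgroup.mem_subgroupOf, autInducedBy_self, mem_Inn] at h5
  obtain ⟨u, hu, hh⟩ := h5
  have h6 := hh ⟨v, hv.1⟩
  rw [hodd m hm, hv.2 u hu, mul_inv_cancel_right] at h6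
  rw [pow_two]
  nth_rewrite 2 [← h6]
  exact mul_inv_cancel v

theorem mainF (hS : IsPGroup 2 S) (hF : F.IsSaturated 2) (h : ∀ x ∈ S, ∃ w, Zc S w ∧ Rel F x w) :
    ∀ x ∈ S, ∀ y ∈ S, x * y = y * x := by
  by_contra hcon
  have csq : ∀ q ∈ S, ∀ z, Zc S z → Rel F (q ^ 2) z → ∃ c, Zc S c ∧ c ^ 2 = z := by
    intro q hq z hz hqz
    obtain ⟨v, hv, hqv⟩ := h q hq
    have hv2 : Zc S (v ^ 2) := by rw [pow_two]; exact hv.mul hv
    obtain ⟨ψ, hψ, e⟩ := burnsideF hS hF ((hqv.pow 2).symm.trans hqz) hv2 hz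
    refine ⟨ψ ⟨v, hv.1⟩, map_Zc hψ hv, ?_⟩
    rw [← e, ← map_pow]; rfl
  have hx : ∃ x ∈ S, ¬ Zc S x ∧ Zc S (x ^ 2) ∧ ∀ s ∈ S, Zc S (x⁻¹ * s * x * s⁻¹) := by
    have hne : Subgroup.center ↥S ≠ ⊤ := by
      intro htop
      apply hcon
      intro x hx y hy
      have : (⟨x, hx⟩ : ↥S) ∈ Subgroup.center ↥S := by rw [htop]; trivial
      exact (congrArg Subtype.val (Subgroup.mem_center_iff.1 this ⟨y, hy⟩)).symm
    have hnt : Nontrivial (↥S ⧸ Subgroup.center ↥S) := by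
      rw [QuotientGroup.nontrivial_iff]
      exact hne
    have hp : IsPGroup 2 (↥S ⧸ Subgroup.center ↥S) := hS.to_quotient _
    have hc := hp.center_nontrivial
    have hp2 : IsPGroup 2 ↥(Subgroup.center (↥S ⧸ Subgroup.center ↥S)) := hp.to_subgroup _
    have hdvd : 2 ∣ Nat.card ↥(Subgroup.center (↥S ⧸ Subgroup.center ↥S)) := by
      obtain ⟨k, hk⟩ := IsPGroup.iff_card.1 hp2
      rcases k with _ | k
      · rw [pow_zero] at hk
        exact absurd hk (Finite.one_lt_card).ne'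
      · rw [hk, pow_succ]; exact Dvd.intro_left _ rfl
    obtain ⟨xb, hxb⟩ := exists_prime_orderOf_dvd_card' 2 hdvd
    obtain ⟨x, hx⟩ := QuotientGroup.mk_surjective (xb : ↥S ⧸ Subgroup.center ↥S)
    have cen : ∀ u : ↥S, u ∈ Subgroup.center ↥S → Zc S (u : Ω) := by
      intro u hu
      exact ⟨u.2, fun y hy => congrArg Subtype.val (Subgroup.mem_center_iff.1 hu ⟨y, hy⟩)⟩
    refine ⟨(x : Ω), x.2, ?_, ?_, ?_⟩
    · intro hz
      have h1 : x ∈ Subgroup.center ↥S := by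
        rw [Subgroup.mem_center_iff]; intro y; exact Subtype.ext (hz.2 y y.2)
      have h2 := (QuotientGroup.eq_one_iff x).2 h1
      rw [hx] at h2
      have h3 : xb = 1 := Subtype.ext h2
      rw [h3, orderOf_one] at hxb
      omega
    · have h1 : xb ^ 2 = 1 := by
        have h0 := pow_orderOf_eq_one xb
        rwa [hxb] at h0
      have h2 : ((x ^ 2 : ↥S) : ↥S ⧸ Subgroup.center ↥S) = 1 := by
        rw [QuotientGroup.mk_pow, hx]
        exact congrArg Subtype.val h1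
      exact cen _ ((QuotientGroup.eq_one_iff _).1 h2)
    · intro s hs
      have h1 := Subgroup.mem_center_iff.1 xb.2 ((⟨s, hs⟩ : ↥S) : ↥S ⧸ Subgroup.center ↥S)
      have h2 : ((x⁻¹ * ⟨s, hs⟩ * x * (⟨s, hs⟩ : ↥S)⁻¹ : ↥S) : ↥S ⧸ Subgroup.center ↥S) = 1 := by
        rw [QuotientGroup.mk_mul, QuotientGroup.mk_mul, QuotientGroup.mk_mul, QuotientGroup.mk_inv, QuotientGroup.mk_inv, hx,
          mul_assoc _ _ (xb : ↥S ⧸ Subgroup.center ↥S), h1]
        group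
      exact cen _ ((QuotientGroup.eq_one_iff _).1 h2)
  obtain ⟨x0, hx0, hx0n, hx0sq, hx0c⟩ := hx
  obtain ⟨b, hb, hb2⟩ := csq x0 hx0 (x0 ^ 2) hx0sq (by
    have := Rel.conj (F := F) (pow_mem hx0 2) (S.one_mem)
    simpa using this)
  set x := x0 * b⁻¹ with hxd
  have hxS : x ∈ S := mul_mem hx0 (inv_mem hb.1)
  have hx2 : x ^ 2 = 1 := by
    have h1 : x0 * b⁻¹ = b⁻¹ * x0 := hb.inv.2 x0 hx0
    rw [hxd, pow_two, mul_assoc, ← mul_assoc b⁻¹ x0, ← h1, mul_assoc, ← mul_assoc x0, ← pow_two, ← hb2]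
    group
  have hxn : ¬ Zc S x := by
    intro hz
    apply hx0n
    have := hz.mul hb
    rwa [hxd, inv_mul_cancel_right] at this
  obtain ⟨s, hs, hne⟩ : ∃ s ∈ S, s * x ≠ x * s := by
    by_contra hc
    push Not at hc
    exact hxn ⟨hxS, hc⟩
  obtain ⟨z, hzZ, hsx⟩ : ∃ z, Zc S z ∧ s * x * s⁻¹ = x * z := by
    refine ⟨x⁻¹ * s * x * s⁻¹, ?_, by group⟩
    have h1 := hx0c s hs
    have h2 : x⁻¹ * s * x * s⁻¹ = x0⁻¹ * s * x0 * s⁻¹ := by
      have h3 : b * s = s * b := (hb.2 s hs).symm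
      have h4 : b⁻¹ * s⁻¹ = s⁻¹ * b⁻¹ := by
        rw [← mul_inv_rev, ← mul_inv_rev, h3]
      rw [hxd, mul_inv_rev, inv_inv]
      calc b * x0⁻¹ * s * (x0 * b⁻¹) * s⁻¹ = b * (x0⁻¹ * s * x0) * (b⁻¹ * s⁻¹) := by group
        _ = b * (x0⁻¹ * s * x0) * (s⁻¹ * b⁻¹) := by rw [h4]
        _ = b * (x0⁻¹ * s * x0 * s⁻¹) * b⁻¹ := by group
        _ = (x0⁻¹ * s * x0 * s⁻¹) * b * b⁻¹ := by rw [h1.2 b hb.1]
        _ = x0⁻¹ * s * x0 * s⁻¹ := by group
    rw [h2]; exact h1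
  have hxz : x * z = z * x := hzZ.2 x hxS
  have hz2 : z ^ 2 = 1 := by
    have h1 : (s * x * s⁻¹) ^ 2 = 1 := by rw [conj_pow, hx2]; group
    rw [hsx, (show Commute x z from hxz).mul_pow, hx2, one_mul] at h1
    exact h1
  have hz1 : z ≠ 1 := by
    rintro rfl
    apply hne
    rw [mul_one] at hsx
    calc s * x = s * x * s⁻¹ * s := by group
      _ = x * s := by rw [hsx]
  have hsz : s * z = z * s := hzZ.2 s hs
  have hsx' : s * x = x * z * s := by rw [← hsx]; group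
  have hkey : (x * s) ^ 2 = z * s ^ 2 := by
    rw [pow_two, pow_two]
    calc x * s * (x * s) = x * (s * x) * s := by group
      _ = x * (x * z * s) * s := by rw [hsx']
      _ = x ^ 2 * (z * (s * s)) := by rw [pow_two]; group
      _ = z * (s * s) := by rw [hx2, one_mul]
  have hs2x : x * s ^ 2 = s ^ 2 * x := by
    rw [pow_two]
    calc x * (s * s) = x * z ^ 2 * s * s := by rw [hz2]; group
      _ = (x * z) * (z * s) * s := by rw [pow_two]; group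
      _ = (x * z) * (s * z) * s := by rw [hsz]
      _ = (x * z * s) * z * s := by group
      _ = (s * x) * z * s := by rw [hsx']
      _ = s * (x * z * s) := by group
      _ = s * (s * x) := by rw [hsx']
      _ = s * s * x := by group
  obtain ⟨w, hw, hsw⟩ := h s hs
  have hw2 : Zc S (w ^ 2) := by rw [pow_two]; exact hw.mul hw
  obtain ⟨φ, hφ, e⟩ := ext_cent hS hF (hsw.pow 2) hw2
  have hmem : ∀ y ∈ S, y * s ^ 2 = s ^ 2 * y → y ∈ centralizerIn S (Subgroup.zpowers (s ^ 2)) := by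
    intro y hy hys
    rw [mem_centralizerIn]
    refine ⟨hy, ?_⟩
    intro u hu
    obtain ⟨n, rfl⟩ := Subgroup.mem_zpowers_iff.1 hu
    exact ((show Commute y (s ^ 2) from hys).zpow_right n).symm
  have hsK := hmem s hs (by rw [pow_two]; group)
  have hxK := hmem x hxS hs2x
  have hzK := hmem z hzZ.1 ((show Commute s z from hsz).pow_left 2).symm
  set φs := φ ⟨s, hsK⟩ with hφs
  set φx := φ ⟨x, hxK⟩ with hφx
  have e2 : φs ^ 2 = w ^ 2 := by
    rw [hφs, ← map_pow, ← e (pow_mem hsK 2)]; rfl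
  have e3 : (φx * φs) ^ 2 = φ ⟨z, hzK⟩ * w ^ 2 := by
    rw [← e2, hφs, hφx, ← map_mul, ← map_pow, ← map_pow, ← map_mul]
    congr 1
    exact Subtype.ext hkey
  set q : Ω := φx * φs * w⁻¹ with hq
  have hqS : q ∈ S := mul_mem (mul_mem (mem_S hφ _) (mem_S hφ _)) (inv_mem hw.1)
  have hq2 : q ^ 2 = φ ⟨z, hzK⟩ := by
    have h1 : (φx * φs) * w⁻¹ = w⁻¹ * (φx * φs) := hw.inv.2 _ (mul_mem (mem_S hφ _) (mem_S hφ _))
    rw [hq, (show Commute _ _ from h1).mul_pow, inv_pow, e3]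
    group
  have hzq : Rel F z (q ^ 2) := ⟨_, φ, hφ, hzK, hq2.symm⟩
  obtain ⟨c, hc, hc2⟩ := csq q hqS z hzZ hzq.symm
  have hxc : x * c = c * x := hc.2 x hxS
  set r := x * c with hr
  have hr2 : r ^ 2 = z := by rw [hr, (show Commute x c from hxc).mul_pow, hx2, hc2, one_mul]
  have hrS : r ∈ S := mul_mem hxS hc.1
  have hrr : s * r * s⁻¹ = r⁻¹ := by
    have h1 : s * c = c * s := hc.2 s hs
    have h2 : s * r * s⁻¹ = r * z := by
      calc s * r * s⁻¹ = s * x * (c * s⁻¹) := by rw [hr]; group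
        _ = s * x * (s⁻¹ * c) := by
            rw [show c * s⁻¹ = s⁻¹ * (s * c) * s⁻¹ by group, h1]; group
        _ = (s * x * s⁻¹) * c := by group
        _ = x * z * c := by rw [hsx]
        _ = x * (z * c) := by group
        _ = x * (c * z) := by rw [hzZ.2 c hc.1]
        _ = r * z := by rw [hr]; group
    rw [h2]
    have h3 : r * z * r = 1 := by
      have h4 : z * r = r * z := (hzZ.2 r hrS).symm
      rw [mul_assoc, h4, ← mul_assoc, ← pow_two, hr2, ← pow_two, hz2]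
    exact eq_inv_of_mul_eq_one_left h3
  obtain ⟨v, hv, hrv⟩ := h r hrS
  have hrr' : Rel F r r⁻¹ := by
    have := Rel.conj (F := F) hrS hs
    rwa [hrr] at this
  have h9 := not_realF hS hF hv ((hrv.symm.trans hrr').trans hrv.inv)
  have h10 : Rel F (1 : Ω) z := by
    have h11 := (hrv.pow 2).symm
    rwa [h9, hr2] at h11
  obtain ⟨P, χ, hχ, h1P, e4⟩ := h10
  apply hz1
  rw [← e4]
  exact map_one χ

end CfsgLib.CamHer
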