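import Mathlib
import Cfsg.Agent.EqBase

/-! coset enumeration helpers -/

set_option autoImplicit false

namespace CfsgLib.CosEnH12

theorem coset_all {G : Type*} [Group G] (T : Set G) (hT : Subgroup.closure T = ⊤)
    (hinv : ∀ t ∈ T, ∃ k : ℕ, t⁻¹ = t ^ k) (H : Subgroup G) (S : Set (G ⧸ H))
    (h0 : ((1 : G) : G ⧸ H) ∈ S) (hcl : ∀ t ∈ T, ∀ s ∈ S, t • s ∈ S) (c : G ⧸ H) : c ∈ S := by
  have hpow : ∀ t ∈ T, ∀ k : ℕ, ∀ s ∈ S, t ^ k • s ∈ S := by
    intro t ht k
    induction k with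
    | zero => intro s hs; simpa using hs
    | succ k ih => intro s hs; rw [pow_succ, mul_smul]; exact ih _ (hcl t ht s hs)
  have key : ∀ g : G, (∀ s ∈ S, g • s ∈ S) ∧ (∀ s ∈ S, g⁻¹ • s ∈ S) := by
    intro g
    have hg : g ∈ Subgroup.closure T := by rw [hT]; exact Subgroup.mem_top g
    induction hg using Subgroup.closure_induction with
    | mem t ht =>
      refine ⟨hcl t ht, ?_⟩
      obtain ⟨k, hk⟩ := hinv t ht
      rw [hk]
      exact hpow t ht k
    | one => simp
    | mul a b _ _ iha ihb =>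
      refine ⟨fun s hs => ?_, fun s hs => ?_⟩
      · rw [mul_smul]; exact iha.1 _ (ihb.1 s hs)
      · rw [mul_inv_rev, mul_smul]; exact ihb.2 _ (iha.2 s hs)
    | inv a _ ih => exact ⟨ih.2, by rw [inv_inv]; exact ih.1⟩
  induction c using QuotientGroup.induction_on with
  | H g =>
    have := (key g).1 _ h0
    rwa [MulAction.Quotient.smul_coe, smul_eq_mul, mul_one] at this

theorem card_bound {G : Type*} [Group G] (T : Set G) (hT : Subgroup.closure T = ⊤)
    (hinv : ∀ t ∈ T, ∃ k : ℕ, t⁻¹ = t ^ k) (H : Subgroup G) (hfin : Finite H)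
    (S : Finset (G ⧸ H))
    (h0 : ((1 : G) : G ⧸ H) ∈ S) (hcl : ∀ t ∈ T, ∀ s ∈ S, t • s ∈ S) :
    Finite G ∧ Nat.card G ≤ Nat.card H * S.card := by
  classical
  have hall := coset_all T hT hinv H (S : Set (G ⧸ H)) h0 hcl
  have hfq : Finite (G ⧸ H) := by
    have : Finite (S : Set (G ⧸ H)) := S.finite_toSet
    exact Finite.of_surjective (fun s : (S : Set (G ⧸ H)) => (s : G ⧸ H))
      (fun c => ⟨⟨c, hall c⟩, rfl⟩)
  have hG : Finite G := Finite.of_equiv _ (Subgroup.groupEquivQuotientProdSubgroup (s := H)).symm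
  refine ⟨hG, ?_⟩
  have h1 : Nat.card (G ⧸ H) ≤ S.card := by
    have : Nat.card (S : Set (G ⧸ H)) = S.card := by simp
    rw [← this]
    exact Nat.card_le_card_of_surjective (fun s : (S : Set (G ⧸ H)) => (s : G ⧸ H))
      (fun c => ⟨⟨c, hall c⟩, rfl⟩)
  have h2 := Subgroup.card_eq_card_quotient_mul_card_subgroup H
  rw [h2, mul_comm]
  exact Nat.mul_le_mul_left _ h1

theorem card_zpowers_le {G : Type*} [Group G] (y : G) (n : ℕ) (hn : 0 < n) (h : y ^ n = 1) :
    Finite (Subgroup.zpowers y) ∧ Nat.card (Subgroup.zpowers y) ≤ n := by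
  have h1 : orderOf y ∣ n := orderOf_dvd_of_pow_eq_one h
  have h2 : 0 < orderOf y := Nat.pos_of_dvd_of_pos h1 hn
  refine ⟨?_, ?_⟩
  · exact Nat.finite_of_card_ne_zero (by rw [Nat.card_zpowers]; exact h2.ne')
  · rw [Nat.card_zpowers]; exact Nat.le_of_dvd hn h1

/-- surjection onto a group at least as large -/
theorem equiv_of_surj {G K : Type*} [Group G] [Group K] [Finite G] (f : G →* K)
    (hf : Function.Surjective f) (h : Nat.card G ≤ Nat.card K) : Nonempty (G ≃* K) := by
  have : Finite K := Finite.of_surjective f hf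
  have hc : Nat.card G = Nat.card K := le_antisymm h (Nat.card_le_card_of_surjective f hf)
  have hb : Function.Bijective f := (Nat.bijective_iff_surjective_and_card f).mpr ⟨hf, hc⟩
  exact ⟨MulEquiv.ofBijective f hb⟩

end CfsgLib.CosEnH12
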