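import Mathlib
import Cfsg.Agent.EqBase
import Cfsg.Agent.LibCosEnH12

/-! Carmichael's presentation of the alternating group: order bound -/

set_option autoImplicit false

universe u

namespace CfsgLib.CarmH12

open CfsgLib.CosEnH12

structure Rel {G : Type u} [Group G] (x : ℕ → G) (M : ℕ) : Prop where
  r0 : 0 < M → x 0 ^ 3 = 1
  r2 : ∀ i, 1 ≤ i → i < M → x i ^ 2 = 1
  r3 : ∀ i, i + 1 < M → (x i * x (i + 1)) ^ 3 = 1
  r4 : ∀ i j, i + 1 < j → j < M → (x i * x j) ^ 2 = 1

/-- the closure step on an abstract set with functions -/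
theorem closed_step {Ω : Type u} (M : ℕ) (hM : 1 ≤ M) (a : ℕ → Ω → Ω) (c0 : Ω)
    (h0 : ∀ w, a 0 (a 0 (a 0 w)) = w)
    (h2 : ∀ i, 1 ≤ i → i ≤ M → ∀ w, a i (a i w) = w)
    (h3 : ∀ i, i + 1 ≤ M → ∀ w, a i (a (i + 1) (a i (a (i + 1) (a i (a (i + 1) w))))) = w)
    (h4 : ∀ i j, i + 1 < j → j ≤ M → ∀ w, a i (a j (a i (a j w))) = w)
    (hc : ∀ i, i < M → a i c0 = c0) :
    ∃ (D : ℕ → Ω) (e : Ω), D 0 = c0 ∧
      (∀ k, k ≤ M + 1 → ∀ i, i ≤ M → (∃ l, l ≤ M + 1 ∧ a i (D k) = D l) ∨ a i (D k) = e) ∧
      (∀ i, i ≤ M → (∃ l, l ≤ M + 1 ∧ a i e = D l)) := by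
  let D : ℕ → Ω := fun k => Nat.rec c0 (fun k w => a (M - k) w) k
  have hD0 : D 0 = c0 := rfl
  have hDs : ∀ k, D (k + 1) = a (M - k) (D k) := fun k => rfl
  have inj : ∀ i, i ≤ M → ∀ w w', a i w = a i w' → w = w' := by
    intro i hi w w' h
    rcases Nat.eq_zero_or_pos i with h' | h'
    · subst h'; rw [← h0 w, h, h0]
    · rw [← h2 i h' hi w, h, h2 i h' hi]
  have F1 : ∀ k i, i + k + 1 ≤ M → a i (D k) = D k := by
    intro k
    induction k with
    | zero => intro i hi; exact hc i (by omega)
    | succ k ih =>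
      intro i hi
      rw [hDs]
      have hj : M - k ≤ M := by omega
      -- a i (a j w) = a j w where a i w = w
      have h5 := ih i (by omega)
      have h6 := h4 i (M - k) (by omega) hj (D k)
      -- a i (a j (a i (a j w))) = w
      apply inj (M - k) hj
      apply inj i (by omega)
      rw [h6, h2 (M - k) (by omega) hj, h5]
  have comm : ∀ i j, 1 ≤ i → i + 1 < j → j ≤ M → ∀ w, a j (a i w) = a i (a j w) := by
    intro i j hi hij hj w
    apply inj i (by omega)
    apply inj j hj
    rw [h2 i hi (by omega), h2 j (by omega) hj]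
    have := h4 i j hij hj (a j (a i (w)))
    rw [h2 j (by omega) hj, h2 i hi (by omega)] at this
    -- this : a i (a j w) = a j (a i w)
    rw [← this, h2 i hi (by omega), h2 j (by omega) hj]
  have braid : ∀ i, 1 ≤ i → i + 1 ≤ M → ∀ w,
      a (i + 1) (a i (a (i + 1) w)) = a i (a (i + 1) (a i w)) := by
    intro i hi hi' w
    have h := h3 i hi' (a (i + 1) (a i (a (i + 1) w)))
    -- a i a' a i a' a i a' a' a i a' w = ... 
    rw [h2 (i + 1) (by omega) hi', h2 i hi (by omega), h2 (i + 1) (by omega) hi'] at h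
    exact h.symm
  have F2 : ∀ k i, k ≤ M → M + 1 < i + k → i ≤ M → a i (D k) = D k := by
    intro k
    induction k with
    | zero => intro i _ h1 h2; omega
    | succ k ih =>
      intro i hk hik hi
      rw [hDs]
      by_cases hi1 : i = M - k + 1
      · obtain ⟨l, rfl⟩ : ∃ l, k = l + 1 := ⟨k - 1, by omega⟩
        rw [hDs]
        have e1 : M - l = M - (l + 1) + 1 := by omega
        have e2 : i = M - (l + 1) + 1 := hi1
        rw [e1, e2, braid _ (by omega) (by omega)]
        congr 2
        exact F1 l _ (by omega)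
      · rw [comm (M - k) i (by omega) (by omega) hi, ih i (by omega) (by omega) hi]
  have hDM : D (M + 1) = a 0 (D M) := by rw [hDs, Nat.sub_self]
  have inv0 : ∀ w w', a 0 w = w' → a 0 (a 0 w') = w := fun w w' h => by rw [← h, h0]
  have F3 : ∀ i, 1 ≤ i → i ≤ M → a i (D (M + 1)) = a 0 (D (M + 1)) := by
    intro i hi hi'
    by_cases h1 : i = 1
    · subst h1
      obtain ⟨m, rfl⟩ : ∃ m, M = m + 1 := ⟨M - 1, by omega⟩
      have e1 : D (m + 1) = a 1 (D m) := by
        rw [hDs]; congr 1; omega
      have f1 : a 0 (D m) = D m := F1 m 0 (by omega)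
      -- w = D m ; want a 1 (a 0 (a 1 w)) = a 0 (a 0 (a 1 w)), a 0 w = w
      rw [hDM, e1]
      have h := h3 0 (by omega) (D m)
      rw [zero_add] at h
      -- a 0 (a 1 (a 0 (a 1 (a 0 (a 1 w))))) = w
      have g1 := inv0 _ _ h
      -- a 0 (a 0 w) = a 1 (a 0 (a 1 (a 0 (a 1 w))))
      rw [f1, f1] at g1
      have g2 : a 1 (D m) = a 0 (a 1 (a 0 (a 1 (D m)))) := by
        conv_lhs => rw [g1]
        rw [h2 1 (by omega) (by omega)]
      have g3 := inv0 _ _ g2.symm
      exact g3.symm
    · have g1 := h4 0 i (by omega) hi' (D M)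
      have g2 := F2 M i le_rfl (by omega) hi'
      rw [g2] at g1
      -- a 0 (a i (a 0 (D M))) = D M
      have g3 := inv0 _ _ g1
      rw [hDM, ← g3]
  refine ⟨D, a 0 (D (M + 1)), hD0, ?_, ?_⟩
  · intro k hk i hi
    rcases Nat.lt_trichotomy (i + k) M with h | h | h
    · exact Or.inl ⟨k, hk, F1 k i (by omega)⟩
    · refine Or.inl ⟨k + 1, by omega, ?_⟩
      rw [hDs]
      congr 1
      omega
    · by_cases h' : i + k = M + 1
      · by_cases hi0 : i = 0
        · subst hi0
          right
          rw [show k = M + 1 by omega]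
        · left
          obtain ⟨l, rfl⟩ : ∃ l, k = l + 1 := ⟨k - 1, by omega⟩
          refine ⟨l, by omega, ?_⟩
          rw [hDs, show M - l = i by omega, h2 i (by omega) hi]
      · by_cases hk' : k ≤ M
        · exact Or.inl ⟨k, hk, F2 k i hk' (by omega) hi⟩
        · right
          rw [show k = M + 1 by omega]
          exact F3 i (by omega) hi
  · intro i hi
    rcases Nat.eq_zero_or_pos i with h | h
    · subst h
      refine ⟨M, by omega, ?_⟩
      rw [hDM, h0]
    · refine ⟨M + 1, le_rfl, ?_⟩
      rw [← F3 i h hi, h2 i h hi]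

theorem bound (M : ℕ) (hM : 1 ≤ M) : ∀ (G : Type u) [Group G] (x : ℕ → G), Rel x M →
    Subgroup.closure (x '' {i | i < M}) = ⊤ → Finite G ∧ 2 * Nat.card G ≤ (M + 2).factorial := by
  classical
  induction M, hM using Nat.le_induction with
  | base =>
    intro G _ x hx hgen
    have h1 : x '' {i | i < 1} = {x 0} := by
      ext z; constructor
      · rintro ⟨i, hi, rfl⟩
        have : i = 0 := by simpa using hi
        subst this; rfl
      · rintro rfl; exact ⟨0, by simp, rfl⟩
    rw [h1, ← Subgroup.zpowers_eq_closure] at hgen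
    obtain ⟨hf, hle⟩ := card_zpowers_le (x 0) 3 (by norm_num) (hx.r0 (by norm_num))
    rw [hgen] at hf hle
    have hfG : Finite G := Finite.of_equiv _ (Subgroup.topEquiv (G := G)).toEquiv
    refine ⟨hfG, ?_⟩
    rw [Subgroup.card_top] at hle
    have : Nat.factorial (1 + 2) = 6 := rfl
    omega
  | succ M hM ih =>
    intro G _ x hx hgen
    obtain ⟨H, hH⟩ : ∃ H : Subgroup G, H = Subgroup.closure (x '' {i | i < M}) := ⟨_, rfl⟩
    have hmem : ∀ i, i < M → x i ∈ H := fun i hi => by
      rw [hH]; exact Subgroup.subset_closure ⟨i, hi, rfl⟩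
    let x' : ℕ → H := fun i => if h : i < M then ⟨x i, hmem i h⟩ else 1
    have hx' : ∀ i, i < M → ((x' i : H) : G) = x i := fun i hi => by
      simp only [x', dif_pos hi]
    have hrel : Rel x' M := by
      refine ⟨fun h => ?_, fun i h1 h2 => ?_, fun i h => ?_, fun i j h1 h2 => ?_⟩
      · apply Subtype.ext
        rw [Subgroup.coe_pow, hx' 0 h]; exact hx.r0 (by omega)
      · apply Subtype.ext
        rw [Subgroup.coe_pow, hx' i h2]; exact hx.r2 i h1 (by omega)
      · apply Subtype.ext
        rw [Subgroup.coe_pow, Subgroup.coe_mul, hx' i (by omega), hx' (i + 1) h]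
        exact hx.r3 i (by omega)
      · apply Subtype.ext
        rw [Subgroup.coe_pow, Subgroup.coe_mul, hx' i (by omega), hx' j h2]
        exact hx.r4 i j h1 (by omega)
    have hgen' : Subgroup.closure (x' '' {i | i < M}) = ⊤ := by
      apply Subgroup.map_injective H.subtype_injective
      rw [MonoidHom.map_closure]
      have : H.subtype '' (x' '' {i | i < M}) = x '' {i | i < M} := by
        rw [← Set.image_comp]
        apply Set.image_congr
        intro i hi
        exact hx' i hi
      rw [this, ← hH, ← MonoidHom.range_eq_map, Subgroup.range_subtype]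
    obtain ⟨hfH, hcH⟩ := ih H x' hrel hgen'
    obtain ⟨D, e, hD0, hDc, hec⟩ := closed_step (Ω := G ⧸ H) M hM (fun i c => x i • c)
      ((1 : G) : G ⧸ H)
      (by
        intro w
        have : x 0 • x 0 • x 0 • w = (x 0 ^ 3) • w := by rw [pow_succ, pow_two, mul_smul, mul_smul]
        exact this.trans (by rw [hx.r0 (by omega), one_smul]))
      (by
        intro i h1 h2 w
        have : x i • x i • w = (x i ^ 2) • w := by rw [pow_two, mul_smul]
        exact this.trans (by rw [hx.r2 i h1 (by omega), one_smul]))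
      (by
        intro i h1 w
        have : x i • x (i + 1) • x i • x (i + 1) • x i • x (i + 1) • w =
            ((x i * x (i + 1)) ^ 3) • w := by
          rw [pow_succ, pow_two]; simp only [mul_smul]
        exact this.trans (by rw [hx.r3 i (by omega), one_smul]))
      (by
        intro i j h1 h2 w
        have : x i • x j • x i • x j • w = ((x i * x j) ^ 2) • w := by
          rw [pow_two]; simp only [mul_smul]
        exact this.trans (by rw [hx.r4 i j h1 (by omega), one_smul]))
      (by
        intro i hi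
        rw [MulAction.Quotient.smul_coe, smul_eq_mul, mul_one, QuotientGroup.eq, mul_one]
        exact H.inv_mem (hmem i hi))
    obtain ⟨hfG, hG⟩ := card_bound (x '' {i | i < M + 1}) hgen (by
      rintro t ⟨i, hi, rfl⟩
      rcases Nat.eq_zero_or_pos i with h | h
      · subst h
        exact ⟨2, by rw [inv_eq_iff_mul_eq_one, ← pow_succ', hx.r0 (by omega)]⟩
      · exact ⟨1, by rw [inv_eq_iff_mul_eq_one, ← pow_succ', hx.r2 i h hi]⟩) H hfH
      (insert e ((Finset.range (M + 2)).image D))
      (by
        rw [Finset.mem_insert]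
        right
        rw [Finset.mem_image]
        exact ⟨0, by simp, hD0⟩)
      (by
        rintro t ⟨i, hi, rfl⟩ s hs
        have hi' : i ≤ M := by have : i < M + 1 := hi; omega
        rw [Finset.mem_insert, Finset.mem_image] at hs ⊢
        rcases hs with rfl | ⟨k, hk, rfl⟩
        · obtain ⟨l, hl, hl'⟩ := hec i hi'
          exact Or.inr ⟨l, Finset.mem_range.mpr (by omega), hl'.symm⟩
        · rcases hDc k (by have := Finset.mem_range.mp hk; omega) i hi' with ⟨l, hl, hl'⟩ | h
          · exact Or.inr ⟨l, Finset.mem_range.mpr (by omega), hl'.symm⟩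
          · exact Or.inl h)
    refine ⟨hfG, ?_⟩
    have hcard : (insert e ((Finset.range (M + 2)).image D)).card ≤ M + 3 := by
      refine (Finset.card_insert_le _ _).trans ?_
      have := (Finset.card_image_le (s := Finset.range (M + 2)) (f := D))
      rw [Finset.card_range] at this
      omega
    calc 2 * Nat.card G ≤ 2 * (Nat.card H * (M + 3)) :=
          Nat.mul_le_mul_left _ (hG.trans (Nat.mul_le_mul_left _ hcard))
      _ = (2 * Nat.card H) * (M + 3) := by ring
      _ ≤ (M + 2).factorial * (M + 3) := Nat.mul_le_mul_right _ hcH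
      _ = (M + 1 + 2).factorial := by
        have h9 : (M + 1 + 2).factorial = (M + 3) * (M + 2).factorial := Nat.factorial_succ (M + 2)
        rw [h9, mul_comm]

end CfsgLib.CarmH12
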