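import Cfsg.Agent.LibBrLeon
import Cfsg.Agent.LibCharBasic3
import Cfsg.Agent.LibExc

/-! Characters over a faithful character of a central subgroup (seat helper20). -/

set_option autoImplicit false
set_option linter.all false

namespace CfsgLib.CentChar20

open Cfsg CfsgLib.CharBasic
open scoped ComplexConjugate

universe u

variable {G : Type u} [Group G] [Fintype G] (N : Subgroup G) [Fintype N] (hN : N ≤ Subgroup.center G)

include hN in
theorem over_scalar {ψ : N → ℂ} (hψ : IsIrrCharacter N ψ) {χ : G → ℂ} (hχ : IsIrrCharacter G χ)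
    (hover : classInner (fun n : N => χ n) ψ ≠ 0) : ∀ (n : N) (c : G), χ (n * c) = ψ n * χ c := by
  obtain ⟨l, hl⟩ := CfsgLib.BrLeon.central_hom N.subtype (fun z c => (Subgroup.mem_center_iff.mp (hN z.2) c).symm) hχ
  have h1 : (fun n : N => χ n) = (χ 1) • (fun n : N => (l n : ℂ)) := by
    funext n
    have := hl n 1
    rw [mul_one] at this
    rw [Pi.smul_apply, smul_eq_mul, mul_comm]
    exact this
  have h2 : (fun n : N => (l n : ℂ)) = ψ := by
    by_contra hne
    apply hover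
    rw [h1, CfsgLib.CharBasic.inner_smul_left, irr_inner_ne (isIrrCharacter_hom l) hψ hne, mul_zero]
  intro n c
  rw [← h2]
  exact hl n c

include hN in
/-- vanishing off the special elements -/
theorem vanish {ψ : N → ℂ} (hψ : IsIrrCharacter N ψ) (hfaith : ∀ n : N, ψ n = ψ 1 → n = 1) {χ : G → ℂ} (hχ : IsIrrCharacter G χ)
    (hover : classInner (fun n : N => χ n) ψ ≠ 0) (g x : G) (hcomm : x⁻¹ * g⁻¹ * x * g ∈ N) (hne : x⁻¹ * g⁻¹ * x * g ≠ 1) : χ g = 0 := by
  have hab : ∀ a b : N, a * b = b * a := fun a b => Subtype.ext (Subgroup.mem_center_iff.mp (hN b.2) a)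
  have h1 := irr_degree_one_of_comm hab hψ
  have h2 := over_scalar N hN hψ hχ hover ⟨_, hcomm⟩ g⁻¹
  have h3 : x⁻¹ * g⁻¹ * x * g * g⁻¹ = x⁻¹ * g⁻¹ * x := by group
  have h4 : χ (x⁻¹ * g⁻¹ * x) = χ g⁻¹ := by
    have := irr_classFun hχ g⁻¹ x⁻¹
    rwa [inv_inv] at this
  simp only [h3, h4] at h2
  have h5 : χ g⁻¹ = 0 := by
    by_contra h0
    have h6 : ψ ⟨_, hcomm⟩ = 1 := by
      have h7 : (ψ ⟨_, hcomm⟩ - 1) * χ g⁻¹ = 0 := by rw [sub_mul, one_mul, ← h2, sub_self]
      rcases mul_eq_zero.mp h7 with h8 | h8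
      · exact sub_eq_zero.mp h8
      · exact absurd h8 h0
    exact hne (congrArg Subtype.val (hfaith ⟨_, hcomm⟩ (by rw [h6, h1])))
  rw [char_inv_eq_conj (irr_isCharacter hχ)] at h5
  exact (map_eq_zero _).mp h5

end CfsgLib.CentChar20
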