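import Cfsg.Agent.LibH22Par
import Cfsg.Agent.LibH22OOrd

set_option autoImplicit false

/-! The two classes of maximal totally singular subspaces. -/

namespace CfsgLib.Cls27

open Cfsg.Agent.H22 Module

variable {F V : Type*} [Field F] [AddCommGroup V] [Module F V] [FiniteDimensional F V] {Q : QuadraticForm F V}

local notation "B" => QuadraticMap.polar Q

/-- totally singular -/
def TS (Q : QuadraticForm F V) (U : Submodule F V) : Prop := ∀ x ∈ U, Q x = 0

theorem TS.polar {U : Submodule F V} (hU : TS Q U) {x y : V} (hx : x ∈ U) (hy : y ∈ U) : B x y = 0 := by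
  have h1 := hU _ (U.add_mem hx hy)
  rw [qadd, hU x hx, hU y hy] at h1
  linear_combination h1

/-- orthogonal complement -/
def orth (Q : QuadraticForm F V) (W : Submodule F V) : Submodule F V := LinearMap.BilinForm.orthogonal (QuadraticMap.polarBilin Q) W

theorem mem_orth {W : Submodule F V} {z : V} : z ∈ orth Q W ↔ ∀ w ∈ W, B w z = 0 := Iff.rfl

theorem finrank_orth (hQ : (QuadraticMap.polarBilin Q).Nondegenerate) (W : Submodule F V) : finrank F (orth Q W) = finrank F V - finrank F W :=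
  LinearMap.BilinForm.finrank_orthogonal hQ W

theorem TS.le_orth {U : Submodule F V} (hU : TS Q U) : U ≤ orth Q U := fun _ hx _ hy => hU.polar hy hx

theorem TS.finrank_le (hQ : (QuadraticMap.polarBilin Q).Nondegenerate) {n : ℕ} (hn : finrank F V = 2 * n) {U : Submodule F V} (hU : TS Q U) :
    finrank F U ≤ n := by
  have h1 := Submodule.finrank_mono hU.le_orth
  rw [finrank_orth hQ, hn] at h1
  have := Submodule.finrank_le U
  omega

theorem TS.orth_eq (hQ : (QuadraticMap.polarBilin Q).Nondegenerate) {n : ℕ} (hn : finrank F V = 2 * n) {U : Submodule F V} (hU : TS Q U)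
    (hU' : finrank F U = n) : orth Q U = U := by
  symm
  apply Submodule.eq_of_le_of_finrank_eq hU.le_orth
  rw [finrank_orth hQ, hn, hU']; omega

theorem TS.map {U : Submodule F V} (hU : TS Q U) (g : OGrp Q) : TS Q (U.map (g.1 : V →ₗ[F] V)) := by
  rintro _ ⟨x, hx, rfl⟩
  exact (og_Q g x).trans (hU x hx)

theorem finrank_map_eq' (U : Submodule F V) (g : V ≃ₗ[F] V) : finrank F (U.map (g : V →ₗ[F] V)) = finrank F U :=
  LinearEquiv.finrank_map_eq g U

section step
variable {n : ℕ} (hQ : (QuadraticMap.polarBilin Q).Nondegenerate) (hn : finrank F V = 2 * n) {U W : Submodule F V}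
  (hU : TS Q U) (hU' : finrank F U = n) (hW : TS Q W) (hW' : finrank F W = n) {v : V} (hv : Q v ≠ 0)

include hQ hn hU hU' hW hW'

/-- a reflection changes the dimension of the intersection by one -/
theorem refl_step : finrank F (U ⊓ W.map ((oRefl Q v hv).1 : V →ₗ[F] V) : Submodule F V) = finrank F (U ⊓ W : Submodule F V) + 1 ∨
    finrank F (U ⊓ W : Submodule F V) = finrank F (U ⊓ W.map ((oRefl Q v hv).1 : V →ₗ[F] V) : Submodule F V) + 1 := by
  obtain ⟨W1, hW1⟩ : ∃ W1, W1 = W.map ((oRefl Q v hv).1 : V →ₗ[F] V) := ⟨_, rfl⟩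
  rw [← hW1]
  obtain ⟨H, hH⟩ : ∃ H, H = W ⊓ LinearMap.ker (QuadraticMap.polarBilin Q v) := ⟨_, rfl⟩
  have hmemH : ∀ x, x ∈ H ↔ x ∈ W ∧ B v x = 0 := by
    intro x; rw [hH]; exact Iff.rfl
  have hnle : ¬ W ≤ LinearMap.ker (QuadraticMap.polarBilin Q v) := by
    intro hle
    have h1 : v ∈ orth Q W := by
      rw [mem_orth]
      intro w hw
      rw [QuadraticMap.polar_comm]
      exact hle hw
    rw [hW.orth_eq hQ hn hW'] at h1
    exact hv (hW v h1)
  have hfH := finrank_inf_ker W _ hnle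
  rw [← hH] at hfH
  obtain ⟨w0, hw0, hw0v⟩ : ∃ w0 ∈ W, B v w0 ≠ 0 := by
    by_contra hcon
    push Not at hcon
    exact hnle fun x hx => hcon x hx
  have hrH : ∀ x ∈ H, (oRefl Q v hv).1 x = x := by
    intro x hx
    rw [oRefl_apply, ((hmemH x).1 hx).2, mul_zero, zero_smul, sub_zero]
  have hvW : v ∉ W := fun h => hv (hW v h)
  have hW1mem : ∀ x, x ∈ W1 ↔ ∃ w ∈ W, (oRefl Q v hv).1 w = x := by
    intro x; rw [hW1]; exact Iff.rfl
  have hWW : ∀ x, x ∈ W → x ∈ W1 → x ∈ H := by
    intro x hx hx1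
    obtain ⟨w, hw, rfl⟩ := (hW1mem x).1 hx1
    have h1 : (Q v)⁻¹ * B v w = 0 := by
      by_contra hne
      apply hvW
      have h2 : ((Q v)⁻¹ * B v w) • v ∈ W := by
        have h3 := W.sub_mem hw hx
        rw [oRefl_apply] at h3
        convert h3 using 1
        abel
      rwa [W.smul_mem_iff hne] at h2
    have h2 : B v w = 0 := (mul_eq_zero.1 h1).resolve_left (inv_ne_zero hv)
    rw [oRefl_apply, h1, zero_smul, sub_zero]
    exact (hmemH w).2 ⟨hw, h2⟩
  have hHW : H ≤ W := fun x hx => ((hmemH x).1 hx).1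
  have hHW1 : H ≤ W1 := fun x hx => (hW1mem x).2 ⟨x, hHW hx, hrH x hx⟩
  have hinf : W ⊓ W1 = H := le_antisymm (fun x hx => hWW x hx.1 hx.2) (le_inf hHW hHW1)
  have hfW1 : finrank F W1 = n := by rw [hW1, finrank_map_eq', hW']
  have hTW1 : TS Q W1 := by rw [hW1]; exact hW.map _
  have hsup : W ⊔ W1 = orth Q H := by
    apply Submodule.eq_of_le_of_finrank_eq
    · apply sup_le
      · intro x hx
        rw [mem_orth]
        intro h hh
        exact hW.polar (hHW hh) hx
      · intro x hx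
        rw [mem_orth]
        intro h hh
        exact hTW1.polar (hHW1 hh) hx
    · have h1 := Submodule.finrank_sup_add_finrank_inf_eq W W1
      rw [hinf, hW', hfW1] at h1
      rw [finrank_orth hQ, hn]
      omega
  -- singular vectors of `H^⊥`
  have hsing : ∀ z ∈ orth Q H, Q z = 0 → z ∈ W ∨ z ∈ W1 := by
    intro z hz hqz
    rw [← hsup] at hz
    obtain ⟨x, hx, y, hy, rfl⟩ := Submodule.mem_sup.1 hz
    obtain ⟨w, hw, rfl⟩ := (hW1mem y).1 hy
    rw [qadd, hW x hx, hTW1 _ hy, zero_add, zero_add, oRefl_apply, QuadraticMap.polar_sub_right, hW.polar hx hw, zero_sub,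
      QuadraticMap.polar_smul_right, smul_eq_mul, neg_eq_zero] at hqz
    rcases mul_eq_zero.1 hqz with h | h
    · left
      have h2 : (oRefl Q v hv).1 w = w := by rw [oRefl_apply, h, zero_smul, sub_zero]
      rw [h2]
      exact W.add_mem hx hw
    · right
      have h2 : x ∈ W1 := hHW1 ((hmemH x).2 ⟨hx, by rw [QuadraticMap.polar_comm]; exact h⟩)
      exact W1.add_mem h2 hy
  -- the subspace `S = U ∩ H^⊥`
  obtain ⟨S, hS⟩ : ∃ S, S = U ⊓ orth Q H := ⟨_, rfl⟩
  have hSmem : ∀ x, x ∈ S ↔ x ∈ U ∧ x ∈ orth Q H := by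
    intro x; rw [hS]; exact Iff.rfl
  have hSorth : S = orth Q (U ⊔ H) := by
    ext x
    rw [hSmem, mem_orth]
    have hUo := hU.orth_eq hQ hn hU'
    constructor
    · rintro ⟨h1, h3⟩ w hw
      obtain ⟨a, ha, b, hb, rfl⟩ := Submodule.mem_sup.1 hw
      show QuadraticMap.polar Q (a + b) x = 0
      rw [QuadraticMap.polar_add_left, hU.polar ha h1, (mem_orth.1 h3) b hb, add_zero]
    · intro h
      refine ⟨?_, fun b hb => h b (Submodule.mem_sup_right hb)⟩
      rw [← hUo, mem_orth]
      intro a ha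
      exact h a (Submodule.mem_sup_left ha)
  have hfS : finrank F S = finrank F (U ⊓ H : Submodule F V) + 1 := by
    have h1 := Submodule.finrank_sup_add_finrank_inf_eq U H
    have h2 := Submodule.finrank_mono (inf_le_left : U ⊓ H ≤ U)
    rw [hSorth, finrank_orth hQ, hn]
    omega
  have hcase : S ≤ W ∨ S ≤ W1 := by
    by_contra hcon
    push Not at hcon
    obtain ⟨h1, h3⟩ := hcon
    obtain ⟨x, hx, hxW⟩ := Set.not_subset.1 h1
    obtain ⟨y, hy, hyW⟩ := Set.not_subset.1 h3
    have hxS : x ∈ S := hx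
    have hyS : y ∈ S := hy
    have hSs : ∀ z ∈ S, z ∈ W ∨ z ∈ W1 := fun z hz => hsing z ((hSmem z).1 hz).2 (hU z ((hSmem z).1 hz).1)
    have hx1 : x ∈ W1 := (hSs x hxS).resolve_left hxW
    have hy1 : y ∈ W := (hSs y hyS).resolve_right hyW
    rcases hSs (x + y) (S.add_mem hxS hyS) with h | h
    · apply hxW
      have := W.sub_mem h hy1
      rwa [add_sub_cancel_right] at this
    · apply hyW
      have := W1.sub_mem h hx1
      rwa [add_sub_cancel_left] at this
  rcases hcase with h | h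
  · right
    have e1 : U ⊓ W = S := by
      apply le_antisymm
      · rintro x ⟨hx1, hx2⟩
        rw [hSmem]
        exact ⟨hx1, fun b hb => hW.polar (hHW hb) hx2⟩
      · intro x hx
        exact ⟨((hSmem x).1 hx).1, h hx⟩
    have e2 : U ⊓ W1 = U ⊓ H := by
      apply le_antisymm
      · rintro x ⟨hx1, hx2⟩
        have hxS : x ∈ S := (hSmem x).2 ⟨hx1, fun b hb => hTW1.polar (hHW1 hb) hx2⟩
        exact ⟨hx1, hWW x (h hxS) hx2⟩
      · exact inf_le_inf_left _ hHW1
    rw [e1, e2, hfS]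
  · left
    have e1 : U ⊓ W1 = S := by
      apply le_antisymm
      · rintro x ⟨hx1, hx2⟩
        rw [hSmem]
        exact ⟨hx1, fun b hb => hTW1.polar (hHW1 hb) hx2⟩
      · intro x hx
        exact ⟨((hSmem x).1 hx).1, h hx⟩
    have e2 : U ⊓ W = U ⊓ H := by
      apply le_antisymm
      · rintro x ⟨hx1, hx2⟩
        have hxS : x ∈ S := (hSmem x).2 ⟨hx1, fun b hb => hW.polar (hHW hb) hx2⟩
        exact ⟨hx1, hWW x hx2 (h hxS)⟩
      · exact inf_le_inf_left _ hHW
    rw [e1, e2, hfS]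

end step

/-- **the class parity** -/
theorem class_parity {n : ℕ} (hQ : (QuadraticMap.polarBilin Q).Nondegenerate) (hF : (∃ a : F, a ≠ 0 ∧ a ≠ 1) ∨ finrank F V ≠ 4)
    (hn : finrank F V = 2 * n) {U : Submodule F V} (hU : TS Q U) (hU' : finrank F U = n) (g : OGrp Q) :
    Even (n - finrank F (U ⊓ U.map (g.1 : V →ₗ[F] V) : Submodule F V)) ↔ par hQ hF g = 1 := by
  have key : ∀ g : OGrp Q, ((-1 : ℤˣ) ^ (n + finrank F (U ⊓ U.map (g.1 : V →ₗ[F] V) : Submodule F V))) = par hQ hF g := by
    intro g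
    have hg : g ∈ Subgroup.closure {g : OGrp Q | ∃ v, ∃ hv : Q v ≠ 0, g = oRefl Q v hv} := by
      rw [closure_oRefl hQ hF]; trivial
    induction hg using Subgroup.closure_induction_left with
    | one =>
      have h1 : U.map ((1 : OGrp Q).1 : V →ₗ[F] V) = U := by
        ext x
        constructor
        · rintro ⟨y, hy, rfl⟩; exact hy
        · intro hx; exact ⟨x, hx, rfl⟩
      rw [h1, inf_idem, hU', map_one, ← two_mul, pow_mul, Int.units_sq, one_pow]
    | mul_left x hx y _ ih =>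
      obtain ⟨v, hv, rfl⟩ := hx
      have h1 : U.map ((oRefl Q v hv * y : OGrp Q).1 : V →ₗ[F] V) = (U.map (y.1 : V →ₗ[F] V)).map ((oRefl Q v hv).1 : V →ₗ[F] V) := by
        rw [← Submodule.map_comp]; rfl
      rw [map_mul, par_refl, ← ih, h1]
      rcases refl_step hQ hn hU hU' (hU.map y) (by rw [finrank_map_eq', hU']) hv with h | h
      · rw [h, ← add_assoc, pow_succ, mul_comm]
      · rw [h, ← add_assoc, pow_succ]
        simp
    | inv_mul_cancel x hx y _ ih =>
      obtain ⟨v, hv, rfl⟩ := hx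
      rw [oRefl_inv]
      have h1 : U.map ((oRefl Q v hv * y : OGrp Q).1 : V →ₗ[F] V) = (U.map (y.1 : V →ₗ[F] V)).map ((oRefl Q v hv).1 : V →ₗ[F] V) := by
        rw [← Submodule.map_comp]; rfl
      rw [map_mul, par_refl, ← ih, h1]
      rcases refl_step hQ hn hU hU' (hU.map y) (by rw [finrank_map_eq', hU']) hv with h | h
      · rw [h, ← add_assoc, pow_succ, mul_comm]
      · rw [h, ← add_assoc, pow_succ]
        simp
  have hle : finrank F (U ⊓ U.map (g.1 : V →ₗ[F] V) : Submodule F V) ≤ n := by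
    rw [← hU']; exact Submodule.finrank_mono inf_le_left
  rw [← key g]
  obtain ⟨k, hk⟩ := Nat.exists_eq_add_of_le hle
  generalize finrank F (U ⊓ U.map (g.1 : V →ₗ[F] V) : Submodule F V) = t at hk
  have h3 : n - t = k := by omega
  rw [h3, hk]
  have h4 : t + k + t = k + 2 * t := by ring
  rw [h4, pow_add, pow_mul, Int.units_sq, one_pow, mul_one]
  constructor
  · intro h; exact h.neg_one_pow
  · intro h
    by_contra hne
    rw [Nat.not_even_iff_odd] at hne
    rw [hne.neg_one_pow] at h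
    exact absurd h (by decide)

/-- isometries are transitive on totally singular subspaces of the same dimension -/
theorem exists_map_eq (hQ : (QuadraticMap.polarBilin Q).Nondegenerate) {U W : Submodule F V} (hU : TS Q U) (hW : TS Q W)
    (h : finrank F U ≤ finrank F W) : ∃ g : OGrp Q, U.map (g.1 : V →ₗ[F] V) ≤ W := by
  let b := Module.finBasis F U
  let c := Module.finBasis F W
  obtain ⟨g, hg⟩ := witt_fam hQ (fun i => (b i : V)) (fun i => (c (Fin.castLE h i) : V))
    (b.linearIndependent.map' U.subtype (Submodule.ker_subtype U))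
    ((c.linearIndependent.map' W.subtype (Submodule.ker_subtype W)).comp _ (Fin.castLE_injective h))
    (fun i => by rw [hU _ (b i).2, hW _ (c _).2])
    (fun i j => by rw [hU.polar (b i).2 (b j).2, hW.polar (c _).2 (c _).2])
  refine ⟨g, ?_⟩
  rw [Submodule.map_le_iff_le_comap]
  intro x hx
  have h1 : x = ((∑ i, b.repr ⟨x, hx⟩ i • b i : U) : V) := by rw [b.sum_repr]
  rw [h1, Submodule.mem_comap]
  push_cast
  rw [map_sum]
  apply Submodule.sum_mem
  intro i _
  rw [map_smul]
  apply W.smul_mem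
  show g.1 (b i) ∈ W
  rw [hg]
  exact (c _).2

/-- maximal totally singular subspaces have the same dimension -/
theorem finrank_max (hQ : (QuadraticMap.polarBilin Q).Nondegenerate) {n : ℕ} (hn : finrank F V = 2 * n) {U₀ : Submodule F V} (hU₀ : TS Q U₀)
    (hU₀' : finrank F U₀ = n) {U : Submodule F V} (hU : TS Q U) (hmax : ∀ W : Submodule F V, TS Q W → U ≤ W → W = U) : finrank F U = n := by
  obtain ⟨g, hg⟩ := exists_map_eq hQ hU hU₀ (by rw [hU₀']; exact hU.finrank_le hQ hn)
  have h1 : U ≤ U₀.map ((g⁻¹ : OGrp Q).1 : V →ₗ[F] V) := by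
    intro x hx
    exact ⟨g.1 x, hg ⟨x, hx, rfl⟩, og_inv_apply' g x⟩
  have h2 := hmax _ (hU₀.map _) h1
  rw [← h2, finrank_map_eq', hU₀']

theorem max_of_finrank (hQ : (QuadraticMap.polarBilin Q).Nondegenerate) {n : ℕ} (hn : finrank F V = 2 * n) {U : Submodule F V}
    (hU' : finrank F U = n) (W : Submodule F V) (hW : TS Q W) (hUW : U ≤ W) : W = U :=
  (Submodule.eq_of_le_of_finrank_le hUW (by rw [hU']; exact hW.finrank_le hQ hn)).symm

end CfsgLib.Cls27
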