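import Mathlib

/-! Regular nilpotent operators: kernels of powers, invariant subspaces, cyclic vector, commutant. -/

namespace CfsgLib.Reg

open Module

variable {F V : Type*} [Field F] [AddCommGroup V] [Module F V] [FiniteDimensional F V]

theorem rank_pow_succ (N : End F V) (k : ℕ) :
    finrank F (LinearMap.range (N ^ k)) ≤ finrank F (LinearMap.range (N ^ (k + 1))) + finrank F (LinearMap.ker N) := by
  have h := LinearMap.finrank_range_add_finrank_ker (N.domRestrict (LinearMap.range (N ^ k)))
  have h1 : LinearMap.range (N.domRestrict (LinearMap.range (N ^ k))) = LinearMap.range (N ^ (k + 1)) := by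
    rw [LinearMap.range_domRestrict]
    ext y
    constructor
    · rintro ⟨x, ⟨z, rfl⟩, rfl⟩
      exact ⟨z, by rw [pow_succ']; rfl⟩
    · rintro ⟨z, rfl⟩
      exact ⟨(N ^ k) z, ⟨z, rfl⟩, by rw [pow_succ']; rfl⟩
  have h2 : finrank F (LinearMap.ker (N.domRestrict (LinearMap.range (N ^ k)))) ≤ finrank F (LinearMap.ker N) := by
    have h3 : (LinearMap.ker (N.domRestrict (LinearMap.range (N ^ k)))).map (LinearMap.range (N ^ k)).subtype ≤ LinearMap.ker N := by
      rintro _ ⟨x, hx, rfl⟩
      exact hx
    rw [← Submodule.finrank_map_subtype_eq]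
    exact Submodule.finrank_mono h3
  rw [h1] at h
  omega

/-- `N` is regular nilpotent of size `n`. -/
structure Regular (N : End F V) (n : ℕ) : Prop where
  nil : N ^ n = 0
  rank : finrank F (LinearMap.range N) = n - 1
  dim : finrank F V = n

namespace Regular

variable {N : End F V} {n : ℕ}

theorem ker_le (h : Regular N n) : finrank F (LinearMap.ker N) ≤ 1 := by
  have := LinearMap.finrank_range_add_finrank_ker N
  rw [h.rank, h.dim] at this
  omega

theorem rank_lower (h : Regular N n) (k : ℕ) : n ≤ finrank F (LinearMap.range (N ^ k)) + k := by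
  induction k with
  | zero =>
    rw [pow_zero]
    have : LinearMap.range (1 : End F V) = ⊤ := by
      rw [LinearMap.range_eq_top]; exact fun x => ⟨x, rfl⟩
    rw [this, finrank_top, h.dim]; omega
  | succ k ih =>
    have h1 := rank_pow_succ N k
    have h2 := h.ker_le
    omega

theorem rank_upper (h : Regular N n) (k : ℕ) : finrank F (LinearMap.range (N ^ (n - k))) ≤ k := by
  induction k with
  | zero =>
    rw [Nat.sub_zero, h.nil, LinearMap.range_zero, finrank_bot]
  | succ k ih =>
    by_cases hk : n ≤ k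
    · have h0 : n - (k + 1) = 0 := by omega
      rw [h0, pow_zero]
      exact (Submodule.finrank_le _).trans (by rw [h.dim]; omega)
    · have h1 := rank_pow_succ N (n - (k + 1))
      have h2 := h.ker_le
      rw [show n - (k + 1) + 1 = n - k by omega] at h1
      omega

theorem rank_pow (h : Regular N n) {k : ℕ} (hk : k ≤ n) : finrank F (LinearMap.range (N ^ k)) = n - k := by
  have h1 := h.rank_lower k
  have h2 := h.rank_upper (n - k)
  rw [show n - (n - k) = k by omega] at h2
  omega

theorem ker_pow (h : Regular N n) {k : ℕ} (hk : k ≤ n) : finrank F (LinearMap.ker (N ^ k)) = k := by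
  have := LinearMap.finrank_range_add_finrank_ker (N ^ k)
  rw [h.rank_pow hk, h.dim] at this
  omega

/-- A nilpotent operator on a space of dimension `d` has `N^d = 0` (restricted to an invariant subspace). -/
theorem pow_finrank_of_invariant (hN : IsNilpotent N) (W : Submodule F V) (hW : ∀ v ∈ W, N v ∈ W) :
    ∀ v ∈ W, (N ^ finrank F W) v = 0 := by
  obtain ⟨k, hk⟩ := hN
  have h1 : ∀ j, (N.restrict hW) ^ j = (N ^ j).restrict (Module.End.pow_apply_mem_of_forall_mem j hW) := by
    intro j
    rw [Module.End.pow_restrict]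
  have h2 : LinearMap.ker ((N.restrict hW) ^ k) ≤ LinearMap.ker ((N.restrict hW) ^ finrank F W) :=
    Module.End.ker_pow_le_ker_pow_finrank _ _
  intro v hv
  have h3 : (⟨v, hv⟩ : W) ∈ LinearMap.ker ((N.restrict hW) ^ k) := by
    rw [LinearMap.mem_ker, h1]
    apply Subtype.ext
    show (N ^ k) v = 0
    rw [hk]
    rfl
  have h4 := h2 h3
  rw [LinearMap.mem_ker, h1] at h4
  exact congrArg Subtype.val h4

theorem invariant_eq (h : Regular N n) (W : Submodule F V) (hW : ∀ v ∈ W, N v ∈ W) : W = LinearMap.ker (N ^ finrank F W) := by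
  have h1 : W ≤ LinearMap.ker (N ^ finrank F W) := fun v hv => pow_finrank_of_invariant ⟨n, h.nil⟩ W hW v hv
  apply Submodule.eq_of_le_of_finrank_eq h1
  rw [h.ker_pow]
  rw [← h.dim]
  exact Submodule.finrank_le W

theorem range_pow (h : Regular N n) {k : ℕ} (hk : k ≤ n) : LinearMap.range (N ^ k) = LinearMap.ker (N ^ (n - k)) := by
  apply Submodule.eq_of_le_of_finrank_eq
  · rintro _ ⟨x, rfl⟩
    rw [LinearMap.mem_ker, ← Module.End.mul_apply, ← pow_add, show n - k + k = n by omega, h.nil]; rfl
  · rw [h.rank_pow hk, h.ker_pow (by omega)]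

theorem exists_cyclic (h : Regular N n) (hn : 1 ≤ n) : ∃ v, (N ^ (n - 1)) v ≠ 0 := by
  by_contra hcon
  push Not at hcon
  have h1 : LinearMap.ker (N ^ (n - 1)) = ⊤ := by
    rw [eq_top_iff]
    intro v _
    exact hcon v
  have h2 := h.ker_pow (k := n - 1) (by omega)
  rw [h1, finrank_top, h.dim] at h2
  omega

/-- `Σ c_i N^i`. -/
def pol (N : End F V) {n : ℕ} (c : Fin n → F) : End F V := ∑ i : Fin n, c i • N ^ (i : ℕ)

theorem pol_apply (N : End F V) {n : ℕ} (c : Fin n → F) (v : V) : pol N c v = ∑ i : Fin n, c i • (N ^ (i : ℕ)) v := by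
  unfold pol
  rw [LinearMap.sum_apply]
  rfl

theorem pol_comm (N : End F V) {n : ℕ} (c : Fin n → F) : Commute (pol N c) N := by
  unfold pol
  apply Commute.sum_left
  intro i _
  exact (Commute.pow_self N i).smul_left _

/-- if `k` is the first index with non-zero coefficient, `N^(n-1-k)` isolates it -/
theorem pol_first (h : Regular N n) (c : Fin n → F) (k : Fin n) (hk : ∀ j, j < k → c j = 0) (v : V) :
    (N ^ (n - 1 - (k : ℕ))) (pol N c v) = c k • (N ^ (n - 1)) v := by
  rw [pol_apply, map_sum, Finset.sum_eq_single k]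
  · rw [map_smul, ← Module.End.mul_apply, ← pow_add, show n - 1 - (k : ℕ) + k = n - 1 by omega]
  · intro j _ hj
    rcases lt_or_gt_of_ne hj with h1 | h1
    · rw [hk j h1, zero_smul, map_zero]
    · rw [map_smul, ← Module.End.mul_apply, ← pow_add]
      have : n - 1 - (k : ℕ) + j = n + ((j : ℕ) - k - 1) := by
        have := j.2; have := k.2
        have : (k : ℕ) < j := h1
        omega
      rw [this, pow_add, h.nil, zero_mul, LinearMap.zero_apply, smul_zero]
  · intro hh; exact absurd (Finset.mem_univ k) hh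

theorem pol_inj (h : Regular N n) {v : V} (hv : (N ^ (n - 1)) v ≠ 0) (c : Fin n → F) (hc : pol N c v = 0) : c = 0 := by
  by_contra hne
  have hex : ∃ k : Fin n, c k ≠ 0 := by
    by_contra hcon; push Not at hcon
    exact hne (funext hcon)
  classical
  let S := Finset.univ.filter (fun k : Fin n => c k ≠ 0)
  have hS : S.Nonempty := by
    obtain ⟨k, hk⟩ := hex
    exact ⟨k, by simp [S, hk]⟩
  let k := S.min' hS
  have hk : c k ≠ 0 := by
    have := S.min'_mem hS
    simpa [S] using this
  have hk2 : ∀ j, j < k → c j = 0 := by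
    intro j hj
    by_contra hjn
    have : j ∈ S := by simp [S, hjn]
    exact absurd (S.min'_le j this) (not_le.mpr hj)
  have h1 := pol_first h c k hk2 v
  rw [hc, map_zero] at h1
  exact (smul_ne_zero hk hv) h1.symm

/-- The linear equivalence `c ↦ Σ c_i N^i v` for a cyclic vector `v`. -/
theorem exists_coord (h : Regular N n) {v : V} (hv : (N ^ (n - 1)) v ≠ 0) (w : V) : ∃ c : Fin n → F, pol N c v = w := by
  let φ : (Fin n → F) →ₗ[F] V :=
    { toFun := fun c => pol N c v
      map_add' := fun c d => by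
        simp only [pol_apply, Pi.add_apply, add_smul, Finset.sum_add_distrib]
      map_smul' := fun a c => by
        simp only [pol_apply, Pi.smul_apply, RingHom.id_apply, Finset.smul_sum, smul_smul, smul_eq_mul] }
  have hinj : Function.Injective φ := by
    rw [← LinearMap.ker_eq_bot, LinearMap.ker_eq_bot']
    intro c hc
    exact pol_inj h hv c hc
  have hsurj : Function.Surjective φ := by
    rw [← LinearMap.injective_iff_surjective_of_finrank_eq_finrank]
    · exact hinj
    · rw [h.dim]; simp
  exact hsurj w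

theorem comm_eq (h : Regular N n) {v : V} (hv : (N ^ (n - 1)) v ≠ 0) {S T : End F V} (hS : Commute S N) (hT : Commute T N)
    (hST : S v = T v) : S = T := by
  ext w
  obtain ⟨c, rfl⟩ := h.exists_coord hv w
  have h1 : S * pol N c = pol N c * S := by
    unfold pol
    exact Commute.sum_right _ _ _ (fun i _ => (hS.pow_right i).smul_right _)
  have h2 : T * pol N c = pol N c * T := by
    unfold pol
    exact Commute.sum_right _ _ _ (fun i _ => (hT.pow_right i).smul_right _)
  rw [← Module.End.mul_apply, h1, ← Module.End.mul_apply, h2, Module.End.mul_apply, Module.End.mul_apply, hST]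

theorem exists_pol (h : Regular N n) (hn : 1 ≤ n) {T : End F V} (hT : Commute T N) : ∃ c : Fin n → F, T = pol N c := by
  obtain ⟨v, hv⟩ := h.exists_cyclic hn
  obtain ⟨c, hc⟩ := h.exists_coord hv (T v)
  exact ⟨c, h.comm_eq hv hT (pol_comm N c) hc.symm⟩

theorem pol_isUnit_iff (h : Regular N n) (hn : 1 ≤ n) (c : Fin n → F) : IsUnit (pol N c) ↔ c ⟨0, by omega⟩ ≠ 0 := by
  obtain ⟨v, hv⟩ := h.exists_cyclic hn
  constructor
  · intro hu hc
    -- N^(n-1) * pol = c0 N^(n-1) = 0
    have h1 : ∀ w, (N ^ (n - 1)) (pol N c w) = 0 := by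
      intro w
      have := pol_first h c ⟨0, by omega⟩ (fun j hj => by
        exfalso
        exact absurd hj (by simp [Fin.lt_def])) w
      simp only [Nat.sub_zero] at this
      rw [this, hc, zero_smul]
    rw [Module.End.isUnit_iff] at hu
    obtain ⟨w, hw⟩ := hu.2 v
    exact hv (by rw [← hw]; exact h1 w)
  · intro hc
    rw [Module.End.isUnit_iff]
    have hinj : Function.Injective (pol N c) := by
      rw [← LinearMap.ker_eq_bot]
      -- the kernel is N-invariant
      have hinv : ∀ w ∈ LinearMap.ker (pol N c), N w ∈ LinearMap.ker (pol N c) := by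
        intro w hw
        rw [LinearMap.mem_ker] at hw ⊢
        rw [← Module.End.mul_apply, (pol_comm N c).eq, Module.End.mul_apply, hw, map_zero]
      have h1 := h.invariant_eq _ hinv
      by_contra hne
      have hd : finrank F (LinearMap.ker (pol N c)) ≠ 0 := by
        intro h0
        exact hne (Submodule.finrank_eq_zero.mp h0)
      -- N^(n-1) v is in it
      have h2 : (N ^ (n - 1)) v ∈ LinearMap.ker (pol N c) := by
        rw [h1, LinearMap.mem_ker, ← Module.End.mul_apply, ← pow_add]
        rw [show finrank F (LinearMap.ker (pol N c)) + (n - 1) = n + (finrank F (LinearMap.ker (pol N c)) - 1) by omega]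
        rw [pow_add, h.nil, zero_mul]; rfl
      rw [LinearMap.mem_ker, pol_apply, Finset.sum_eq_single ⟨0, by omega⟩] at h2
      · simp only [pow_zero, Module.End.one_apply] at h2
        exact smul_ne_zero hc hv h2
      · intro j _ hj
        have hj' : (j : ℕ) ≠ 0 := fun h => hj (Fin.ext h)
        rw [← Module.End.mul_apply, ← pow_add, show (j : ℕ) + (n - 1) = n + ((j : ℕ) - 1) by omega, pow_add, h.nil, zero_mul]
        simp
      · intro hh; exact absurd (Finset.mem_univ _) hh
    exact ⟨hinj, LinearMap.surjective_of_injective hinj⟩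

theorem pol_injective (h : Regular N n) (hn : 1 ≤ n) : Function.Injective (fun c : Fin n → F => pol N c) := by
  obtain ⟨v, hv⟩ := h.exists_cyclic hn
  intro c d hcd
  have : pol N (c - d) v = 0 := by
    have h1 : pol N c v = pol N d v := congrArg (fun T : End F V => T v) hcd
    simp only [pol_apply, Pi.sub_apply, sub_smul, Finset.sum_sub_distrib] at h1 ⊢
    rw [h1, sub_self]
  exact sub_eq_zero.mp (h.pol_inj hv _ this)

/-- The coordinate equivalence. -/
theorem exists_equiv (h : Regular N n) {v : V} (hv : (N ^ (n - 1)) v ≠ 0) : ∃ e : (Fin n → F) ≃ₗ[F] V, ∀ c, e c = pol N c v := by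
  let φ : (Fin n → F) →ₗ[F] V :=
    { toFun := fun c => pol N c v
      map_add' := fun c d => by
        simp only [pol_apply, Pi.add_apply, add_smul, Finset.sum_add_distrib]
      map_smul' := fun a c => by
        simp only [pol_apply, Pi.smul_apply, RingHom.id_apply, Finset.smul_sum, smul_smul, smul_eq_mul] }
  have hinj : Function.Injective φ := by
    rw [← LinearMap.ker_eq_bot, LinearMap.ker_eq_bot']
    intro c hc
    exact h.pol_inj hv c hc
  exact ⟨LinearEquiv.ofBijective φ ⟨hinj, fun w' => h.exists_coord hv w'⟩, fun c => rfl⟩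

/-- Shift of coordinates. -/
theorem pol_shift (h : Regular N n) (c : Fin n → F) (v : V) : N (pol N c v) =
    pol N (fun i : Fin n => if hi : (i : ℕ) = 0 then 0 else c ⟨(i : ℕ) - 1, by omega⟩) v := by
  rw [pol_apply, pol_apply, map_sum]
  rcases Nat.eq_zero_or_pos n with h0 | h0
  · subst h0; simp
  obtain ⟨m, rfl⟩ : ∃ m, n = m + 1 := ⟨n - 1, by omega⟩
  rw [Fin.sum_univ_castSucc, Fin.sum_univ_succ]
  have h1 : N (c (Fin.last m) • (N ^ (Fin.last m : ℕ)) v) = 0 := by
    rw [map_smul, ← Module.End.mul_apply, ← pow_succ', Fin.val_last, h.nil]; simp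
  rw [h1, add_zero]
  have h2 : (if hi : ((0 : Fin (m + 1)) : ℕ) = 0 then (0 : F) else c ⟨((0 : Fin (m + 1)) : ℕ) - 1, by omega⟩) • (N ^ ((0 : Fin (m + 1)) : ℕ)) v = 0 := by
    simp
  rw [h2, zero_add]
  refine Finset.sum_congr rfl fun i _ => ?_
  rw [map_smul, ← Module.End.mul_apply, ← pow_succ']
  have h3 : ((i.succ : Fin (m + 1)) : ℕ) ≠ 0 := by simp
  rw [dif_neg h3]
  rfl

/-- Two regular nilpotent operators are conjugate. -/
theorem conj (h : Regular N n) {V' : Type*} [AddCommGroup V'] [Module F V'] [FiniteDimensional F V'] {N' : End F V'} (h' : Regular N' n)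
    (hn : 1 ≤ n) : ∃ g : V ≃ₗ[F] V', ∀ v, g (N v) = N' (g v) := by
  obtain ⟨v, hv⟩ := h.exists_cyclic hn
  obtain ⟨v', hv'⟩ := h'.exists_cyclic hn
  obtain ⟨e, he⟩ := h.exists_equiv hv
  obtain ⟨e', he'⟩ := h'.exists_equiv hv'
  refine ⟨e.symm.trans e', fun w => ?_⟩
  obtain ⟨c, rfl⟩ := e.surjective w
  rw [LinearEquiv.trans_apply, LinearEquiv.trans_apply, LinearEquiv.symm_apply_apply, he, pol_shift h, ← he,
    LinearEquiv.symm_apply_apply, he', he', pol_shift h']

end Regular


theorem card_coef {F : Type*} [Field F] [Fintype F] {n : ℕ} (hn : 1 ≤ n) :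
    Nat.card {c : Fin n → F // c ⟨0, by omega⟩ ≠ 0} = (Fintype.card F - 1) * Fintype.card F ^ (n - 1) := by
  classical
  obtain ⟨m, rfl⟩ : ∃ m, n = m + 1 := ⟨n - 1, by omega⟩
  let e : {c : Fin (m + 1) → F // c ⟨0, by omega⟩ ≠ 0} ≃ Fˣ × (Fin m → F) :=
    { toFun := fun c => (Units.mk0 (c.1 0) c.2, fun i => c.1 i.succ)
      invFun := fun x => ⟨Fin.cons (x.1 : F) x.2, by
        show (Fin.cons (x.1 : F) x.2 : Fin (m + 1) → F) 0 ≠ 0
        rw [Fin.cons_zero]; exact x.1.ne_zero⟩
      left_inv := fun c => by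
        apply Subtype.ext
        funext i
        refine Fin.cases ?_ (fun j => ?_) i
        · rfl
        · rfl
      right_inv := fun x => by
        apply Prod.ext
        · apply Units.ext; rfl
        · rfl }
  rw [Nat.card_congr e, Nat.card_prod, Nat.card_eq_fintype_card, Fintype.card_units, Nat.card_eq_fintype_card, Fintype.card_fun,
    Fintype.card_fin, Nat.add_sub_cancel]

theorem of_matrix {F ι : Type*} [Field F] [Fintype ι] [DecidableEq ι] {n : ℕ} {M : Matrix ι ι F} (hM : M ^ n = 0)
    (hr : M.rank = n - 1) (hc : Fintype.card ι = n) : Regular (Matrix.toLin' M) n where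
  nil := by
    rw [← Matrix.toLin'_pow, hM, map_zero]
  rank := hr
  dim := by simp [hc]

/-- Units commuting with a regular nilpotent operator. -/
theorem card_units {F V : Type*} [Field F] [Fintype F] [AddCommGroup V] [Module F V] [FiniteDimensional F V] {N : End F V} {n : ℕ}
    (h : Regular N n) (hn : 1 ≤ n) :
    Nat.card {T : (End F V)ˣ // Commute (T : End F V) N} = (Fintype.card F - 1) * Fintype.card F ^ (n - 1) := by
  classical
  rw [← card_coef hn]
  symm
  refine Nat.card_congr (Equiv.ofBijective (fun c => ⟨((h.pol_isUnit_iff hn c.1).mpr c.2).unit, ?_⟩) ⟨?_, ?_⟩)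
  · rw [IsUnit.unit_spec]; exact Regular.pol_comm N c.1
  · intro c d hcd
    apply Subtype.ext
    apply h.pol_injective hn
    have := congrArg (fun x => ((x.1 : (End F V)ˣ) : End F V)) hcd
    simpa using this
  · rintro ⟨T, hT⟩
    obtain ⟨c, hc⟩ := h.exists_pol hn hT
    refine ⟨⟨c, (h.pol_isUnit_iff hn c).mp (by rw [← hc]; exact T.isUnit)⟩, ?_⟩
    apply Subtype.ext
    apply Units.ext
    exact hc.symm

end CfsgLib.Reg
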