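import Mathlib
import Cfsg.Agent.LibRegH13

/-! Splitting of classes under a normal subgroup with abelian quotient; determinants of polynomials in nilpotent operators. -/

namespace CfsgLib.Cls

open Module CfsgLib.Reg

theorem card_eq_of_fibres {G X Y : Type*} (φ : G → X) (ψ : G → Y) (hφ : Function.Surjective φ) (hψ : Function.Surjective ψ)
    (h : ∀ g g', φ g = φ g' ↔ ψ g = ψ g') : Nat.card X = Nat.card Y := by
  classical
  refine Nat.card_congr (Equiv.ofBijective (fun x => ψ (Function.surjInv hφ x)) ⟨?_, ?_⟩)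
  · intro x y hxy
    have := (h _ _).mpr hxy
    rwa [Function.surjInv_eq hφ, Function.surjInv_eq hφ] at this
  · intro y
    obtain ⟨g, rfl⟩ := hψ y
    refine ⟨φ g, ?_⟩
    exact (h _ _).mp (Function.surjInv_eq hφ (φ g))

/-- The number of `S`-classes into which a `G`-class splits, `S = ker det` for a homomorphism `det` onto an abelian group. -/
theorem card_classes {G A S : Type*} [Group G] [CommGroup A] [Group S] (det : G →* A) (hdet : Function.Surjective det)
    (ι : S →* G) (hι : Function.Injective ι) (hker : ι.range = det.ker) (P : S → Prop) (x : S)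
    (hP : ∀ y, P y ↔ IsConj (ι x) (ι y)) :
    Nat.card {C : ConjClasses S // ∃ u, ConjClasses.mk u = C ∧ P u} =
      ((Subgroup.centralizer {ι x}).map det).index := by
  classical
  have hs : ∀ g : G, ∃ s : S, ι s = g * ι x * g⁻¹ := by
    intro g
    have : g * ι x * g⁻¹ ∈ ι.range := by
      rw [hker, MonoidHom.mem_ker, map_mul, map_mul, map_inv]
      have : det (ι x) = 1 := by
        rw [← MonoidHom.mem_ker, ← hker]; exact ⟨x, rfl⟩
      rw [this]; simp
    exact this
  choose s hs using hs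
  have hPs : ∀ g, P (s g) := by
    intro g
    rw [hP, isConj_iff]
    exact ⟨g, (hs g).symm⟩
  rw [Subgroup.index]
  refine card_eq_of_fibres (G := G) (fun g => ⟨ConjClasses.mk (s g), s g, rfl, hPs g⟩)
    (fun g => (QuotientGroup.mk (det g) : A ⧸ (Subgroup.centralizer {ι x}).map det)) ?_ ?_ ?_
  · rintro ⟨C, u, rfl, hu⟩
    rw [hP, isConj_iff] at hu
    obtain ⟨g, hg⟩ := hu
    refine ⟨g, ?_⟩
    apply Subtype.ext
    show ConjClasses.mk (s g) = ConjClasses.mk u
    congr 1
    apply hι
    rw [hs, hg]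
  · intro y
    obtain ⟨a, rfl⟩ := QuotientGroup.mk_surjective y
    obtain ⟨g, rfl⟩ := hdet a
    exact ⟨g, rfl⟩
  · intro g h
    rw [Subtype.mk.injEq, ConjClasses.mk_eq_mk_iff_isConj, isConj_iff, QuotientGroup.eq]
    constructor
    · rintro ⟨c, hc⟩
      refine ⟨g⁻¹ * (ι c)⁻¹ * h, ?_, ?_⟩
      · rw [SetLike.mem_coe, Subgroup.mem_centralizer_singleton_iff]
        have := congrArg ι hc
        rw [map_mul, map_mul, map_inv, hs, hs] at this
        have h2 : ι c * g * ι x = h * ι x * h⁻¹ * ι c * g := by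
          rw [← this]; group
        calc g⁻¹ * (ι c)⁻¹ * h * ι x = g⁻¹ * (ι c)⁻¹ * (h * ι x * h⁻¹ * ι c * g) * (g⁻¹ * (ι c)⁻¹ * h) := by group
          _ = g⁻¹ * (ι c)⁻¹ * (ι c * g * ι x) * (g⁻¹ * (ι c)⁻¹ * h) := by rw [h2]
          _ = ι x * (g⁻¹ * (ι c)⁻¹ * h) := by group
      · have hc1 : det (ι c) = 1 := by
          rw [← MonoidHom.mem_ker, ← hker]; exact ⟨c, rfl⟩
        rw [map_mul, map_mul, map_inv, map_inv, hc1, inv_one, mul_one]
    · rintro ⟨z, hz, hz2⟩
      rw [SetLike.mem_coe, Subgroup.mem_centralizer_singleton_iff] at hz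
      have : h * z⁻¹ * g⁻¹ ∈ ι.range := by
        rw [hker, MonoidHom.mem_ker, map_mul, map_mul, map_inv, map_inv, hz2]
        rw [mul_inv_rev, inv_inv, mul_comm ((det h)⁻¹)]
        rw [← mul_assoc, mul_assoc (det h), mul_comm (det h)]
        group
      obtain ⟨c, hc⟩ := this
      refine ⟨c, ?_⟩
      apply hι
      rw [map_mul, map_mul, map_inv, hs, hs, hc]
      have hz3 : z⁻¹ * ι x * z = ι x := by
        rw [mul_assoc, ← hz]; group
      calc h * z⁻¹ * g⁻¹ * (g * ι x * g⁻¹) * (h * z⁻¹ * g⁻¹)⁻¹ = h * (z⁻¹ * ι x * z) * h⁻¹ := by group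
        _ = h * ι x * h⁻¹ := by rw [hz3]

theorem det_one_add {F V : Type*} [Field F] [AddCommGroup V] [Module F V] [FiniteDimensional F V] {N : End F V} (h : IsNilpotent N) :
    LinearMap.det (1 + N) = 1 := by
  have h1 := h.neg.charpoly_eq_X_pow_finrank
  have h2 := LinearMap.det_eq_sign_charpoly_coeff (1 + N)
  have h3 : LinearMap.det (1 + N) = (LinearMap.charpoly (-N)).eval 1 := by
    rw [LinearMap.eval_charpoly]
    congr 1
    ext v
    simp
  rw [h3, h1]
  simp

theorem det_smul_one_add {F V : Type*} [Field F] [AddCommGroup V] [Module F V] [FiniteDimensional F V] {N : End F V} (h : IsNilpotent N)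
    (c : F) (hc : c ≠ 0) : LinearMap.det (c • (1 : End F V) + N) = c ^ finrank F V := by
  have h1 : c • (1 : End F V) + N = c • (1 + c⁻¹ • N) := by
    rw [smul_add, smul_smul, mul_inv_cancel₀ hc, one_smul]
  rw [h1, LinearMap.det_smul, det_one_add, mul_one]
  obtain ⟨k, hk⟩ := h
  exact ⟨k, by rw [smul_pow, hk, smul_zero]⟩

theorem pol_sub_nilpotent {F V : Type*} [Field F] [AddCommGroup V] [Module F V] [FiniteDimensional F V] {N : End F V} {n : ℕ} (h : Regular N n)
    (hn : 1 ≤ n) (c : Fin n → F) : IsNilpotent (Regular.pol N c - c ⟨0, by omega⟩ • (1 : End F V)) := by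
  classical
  have h1 : Regular.pol N c - c ⟨0, by omega⟩ • (1 : End F V) = N * (∑ i : Fin n, if hi : (i : ℕ) = 0 then 0 else c i • N ^ ((i : ℕ) - 1)) := by
    rw [sub_eq_iff_eq_add']
    unfold Regular.pol
    rw [Finset.mul_sum, ← Finset.add_sum_erase _ _ (Finset.mem_univ (⟨0, by omega⟩ : Fin n)),
      ← Finset.add_sum_erase (Finset.univ) (fun i : Fin n => N * (if hi : (i : ℕ) = 0 then 0 else c i • N ^ ((i : ℕ) - 1))) (Finset.mem_univ (⟨0, by omega⟩ : Fin n))]
    simp only [pow_zero, dite_true, mul_zero, zero_add]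
    congr 1
    refine Finset.sum_congr rfl fun i hi => ?_
    have hi0 : (i : ℕ) ≠ 0 := by
      intro h
      exact (Finset.ne_of_mem_erase hi) (Fin.ext h)
    rw [dif_neg hi0, mul_smul_comm, ← pow_succ', Nat.sub_add_cancel (by omega)]
  rw [h1]
  set M := (∑ i : Fin n, if hi : (i : ℕ) = 0 then 0 else c i • N ^ ((i : ℕ) - 1)) with hM
  have hcomm : Commute N M := by
    rw [hM]
    apply Commute.sum_right
    intro i _
    split_ifs
    · exact Commute.zero_right _
    · exact ((Commute.refl N).pow_right _).smul_right _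
  exact Commute.isNilpotent_mul_right hcomm ⟨n, h.nil⟩

theorem det_pol {F V : Type*} [Field F] [AddCommGroup V] [Module F V] [FiniteDimensional F V] {N : End F V} {n : ℕ} (h : Regular N n)
    (hn : 1 ≤ n) (c : Fin n → F) (hc : c ⟨0, by omega⟩ ≠ 0) : LinearMap.det (Regular.pol N c) = c ⟨0, by omega⟩ ^ n := by
  classical
  have h1 : Regular.pol N c = c ⟨0, by omega⟩ • (1 : End F V) + N * (∑ i : Fin n, if hi : (i : ℕ) = 0 then 0 else c i • N ^ ((i : ℕ) - 1)) := by
    unfold Regular.pol
    rw [Finset.mul_sum, ← Finset.add_sum_erase _ _ (Finset.mem_univ (⟨0, by omega⟩ : Fin n)),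
      ← Finset.add_sum_erase (Finset.univ) (fun i : Fin n => N * (if hi : (i : ℕ) = 0 then 0 else c i • N ^ ((i : ℕ) - 1))) (Finset.mem_univ (⟨0, by omega⟩ : Fin n))]
    simp only [pow_zero, dite_true, mul_zero, zero_add]
    congr 1
    refine Finset.sum_congr rfl fun i hi => ?_
    have hi0 : (i : ℕ) ≠ 0 := by
      intro h
      exact (Finset.ne_of_mem_erase hi) (Fin.ext h)
    rw [dif_neg hi0, mul_smul_comm, ← pow_succ', Nat.sub_add_cancel (by omega)]
  rw [h1, det_smul_one_add _ _ hc, h.dim]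
  set M := (∑ i : Fin n, if hi : (i : ℕ) = 0 then 0 else c i • N ^ ((i : ℕ) - 1)) with hM
  have hcomm : Commute N M := by
    rw [hM]
    apply Commute.sum_right
    intro i _
    split_ifs
    · exact Commute.zero_right _
    · exact ((Commute.refl N).pow_right _).smul_right _
  exact Commute.isNilpotent_mul_right hcomm ⟨n, h.nil⟩

/-- The standard regular nilpotent matrix. -/
theorem exists_regular' (F : Type*) [Field F] (n : ℕ) : ∃ M : Matrix (Fin n) (Fin n) F, M ^ n = 0 ∧ M.rank = n - 1 ∧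
    ∀ i j, M i j = 0 ∨ M i j = 1 := by
  classical
  let N : End F (Fin n → F) :=
    { toFun := fun v i => if h : (i : ℕ) + 1 < n then v ⟨i + 1, h⟩ else 0
      map_add' := fun u v => by
        funext i
        by_cases h : (i : ℕ) + 1 < n <;> simp [h]
      map_smul' := fun c v => by
        funext i
        by_cases h : (i : ℕ) + 1 < n <;> simp [h] }
  have hN : ∀ k v (i : Fin n), (N ^ k) v i = if h : (i : ℕ) + k < n then v ⟨i + k, h⟩ else 0 := by
    intro k
    induction k with
    | zero => intro v i; simp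
    | succ k ih =>
      intro v i
      rw [pow_succ', Module.End.mul_apply]
      show (if h : (i : ℕ) + 1 < n then (N ^ k) v ⟨i + 1, h⟩ else 0) = _
      by_cases h : (i : ℕ) + 1 < n
      · rw [dif_pos h, ih]
        simp only [show (i : ℕ) + 1 + k = i + (k + 1) by omega]
      · rw [dif_neg h, dif_neg (by omega)]
  have hnil : N ^ n = 0 := by
    ext v i
    rw [LinearMap.comp_apply, hN, dif_neg (by omega)]
    rfl
  have hker : finrank F (LinearMap.ker N) ≤ 1 := by
    rcases Nat.eq_zero_or_pos n with h0 | h0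
    · subst h0
      exact (Submodule.finrank_le _).trans (by simp)
    · let ev : LinearMap.ker N →ₗ[F] F := (LinearMap.proj (⟨0, h0⟩ : Fin n)).comp (LinearMap.ker N).subtype
      have hev : Function.Injective ev := by
        rw [← LinearMap.ker_eq_bot, LinearMap.ker_eq_bot']
        rintro ⟨v, hv⟩ hv0
        apply Subtype.ext
        funext i
        rw [LinearMap.mem_ker] at hv
        by_cases hi : (i : ℕ) = 0
        · have : i = ⟨0, h0⟩ := Fin.ext hi
          rw [this]; exact hv0
        · have := congrFun hv ⟨(i : ℕ) - 1, by omega⟩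
          have h2 : N v ⟨(i : ℕ) - 1, by omega⟩ = v i := by
            show (if h : (i : ℕ) - 1 + 1 < n then v ⟨(i : ℕ) - 1 + 1, h⟩ else 0) = v i
            rw [dif_pos (by omega)]
            congr 1
            apply Fin.ext
            simp only
            omega
          rw [h2] at this
          exact this
      have := LinearMap.finrank_le_finrank_of_injective hev
      simpa using this
  have hrank : finrank F (LinearMap.range N) = n - 1 := by
    have h1 := LinearMap.finrank_range_add_finrank_ker N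
    rw [Module.finrank_fintype_fun_eq_card, Fintype.card_fin] at h1
    have h2 : n ≠ 0 → finrank F (LinearMap.ker N) ≠ 0 := by
      intro hn h
      rw [Submodule.finrank_eq_zero] at h
      have hinj : Function.Injective N := LinearMap.ker_eq_bot.mp h
      have : Function.Injective (N ^ n) := by
        rw [Module.End.coe_pow]; exact hinj.iterate n
      rw [hnil] at this
      have h3 := @this (fun _ => 1) 0 rfl
      have := congrFun h3 ⟨0, by omega⟩
      exact one_ne_zero this
    omega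
  refine ⟨LinearMap.toMatrix' N, ?_, ?_, fun i j => ?_⟩
  · have h1 : LinearMap.toMatrixAlgEquiv' (N ^ n) = (LinearMap.toMatrixAlgEquiv' N) ^ n := map_pow _ _ _
    rw [hnil, map_zero] at h1
    exact h1.symm
  · unfold Matrix.rank
    rw [← hrank]
    have : (LinearMap.toMatrix' N).mulVecLin = N := by
      rw [← Matrix.toLin'_apply', Matrix.toLin'_toMatrix']
    rw [this]
  · rw [LinearMap.toMatrix'_apply]
    show (if h : (i : ℕ) + 1 < n then (Pi.single j (1 : F) : Fin n → F) ⟨i + 1, h⟩ else 0) = 0 ∨ (if h : (i : ℕ) + 1 < n then (Pi.single j (1 : F) : Fin n → F) ⟨i + 1, h⟩ else 0) = 1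
    by_cases h : (i : ℕ) + 1 < n
    · rw [dif_pos h]
      by_cases hj : (⟨i + 1, h⟩ : Fin n) = j
      · right; rw [hj, Pi.single_eq_same]
      · left; rw [Pi.single_eq_of_ne hj]
    · left; rw [dif_neg h]

theorem exists_regular (F : Type*) [Field F] (n : ℕ) : ∃ M : Matrix (Fin n) (Fin n) F, M ^ n = 0 ∧ M.rank = n - 1 := by
  obtain ⟨M, h1, h2, -⟩ := exists_regular' F n
  exact ⟨M, h1, h2⟩

section Matrix

open scoped Matrix

variable {F ι : Type*} [Field F] [Fintype ι] [DecidableEq ι]

theorem exists_GL (g : (ι → F) ≃ₗ[F] (ι → F)) : ∃ G : GL ι F, ∀ v, (G : Matrix ι ι F) *ᵥ v = g v := by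
  refine ⟨⟨LinearMap.toMatrix' (g : (ι → F) →ₗ[F] (ι → F)), LinearMap.toMatrix' (g.symm : (ι → F) →ₗ[F] (ι → F)), ?_, ?_⟩, ?_⟩
  · rw [← LinearMap.toMatrix'_comp]
    rw [LinearEquiv.comp_coe, LinearEquiv.symm_trans_self]
    exact LinearMap.toMatrix'_id
  · rw [← LinearMap.toMatrix'_comp]
    rw [LinearEquiv.comp_coe, LinearEquiv.self_trans_symm]
    exact LinearMap.toMatrix'_id
  · intro v
    show LinearMap.toMatrix' (g : (ι → F) →ₗ[F] (ι → F)) *ᵥ v = g v
    rw [LinearMap.toMatrix'_mulVec]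
    rfl

theorem mat_ext {A B : Matrix ι ι F} (h : ∀ v, A *ᵥ v = B *ᵥ v) : A = B := by
  apply Matrix.toLin'.injective
  ext1 v
  ext i
  simp only [LinearMap.comp_apply, Matrix.toLin'_apply]
  rw [h]

theorem exists_GL_conj {A B : Matrix ι ι F} (g : (ι → F) ≃ₗ[F] (ι → F)) (hg : ∀ v, g (A *ᵥ v) = B *ᵥ (g v)) :
    ∃ G : GL ι F, (∀ v, (G : Matrix ι ι F) *ᵥ v = g v) ∧ (G : Matrix ι ι F) * A = B * (G : Matrix ι ι F) := by
  obtain ⟨G, hG⟩ := exists_GL g
  refine ⟨G, hG, mat_ext fun v => ?_⟩
  rw [← Matrix.mulVec_mulVec, ← Matrix.mulVec_mulVec, hG, hG, hg]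

theorem isConj_of_lin {x y : GL ι F} (g : (ι → F) ≃ₗ[F] (ι → F)) (hg : ∀ v, g ((x : Matrix ι ι F) *ᵥ v) = (y : Matrix ι ι F) *ᵥ (g v)) :
    IsConj x y := by
  obtain ⟨G, -, hG⟩ := exists_GL_conj g hg
  rw [isConj_iff]
  refine ⟨G, ?_⟩
  rw [mul_inv_eq_iff_eq_mul]
  exact Units.ext hG

/-- The regular unipotent elements of `GL_n` form a conjugacy class. -/
theorem reg_conj_iff {n : ℕ} (hn : 1 ≤ n) (hc : Fintype.card ι = n) (x : GL ι F)
    (hx : ((x : Matrix ι ι F) - 1) ^ n = 0 ∧ ((x : Matrix ι ι F) - 1).rank = n - 1) (y : GL ι F) :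
    (((y : Matrix ι ι F) - 1) ^ n = 0 ∧ ((y : Matrix ι ι F) - 1).rank = n - 1) ↔ IsConj x y := by
  classical
  constructor
  · intro hy
    have h := of_matrix (n := n) hx.1 hx.2 hc
    have h' := of_matrix (n := n) hy.1 hy.2 hc
    obtain ⟨g, hg⟩ := h.conj h' hn
    refine isConj_of_lin g fun v => ?_
    have h1 := hg v
    simp only [map_sub, LinearMap.sub_apply, Matrix.toLin'_one, LinearMap.id_apply, Matrix.toLin'_apply] at h1
    exact sub_left_injective h1
  · rw [isConj_iff]
    rintro ⟨g, rfl⟩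
    have h1 : (((g * x * g⁻¹ : GL ι F) : Matrix ι ι F) - 1) = (g : Matrix ι ι F) * ((x : Matrix ι ι F) - 1) * ((g⁻¹ : GL ι F) : Matrix ι ι F) := by
      rw [Units.val_mul, Units.val_mul, mul_sub, sub_mul, mul_one, Units.mul_inv]
    rw [h1]
    constructor
    · have : ∀ k, ((g : Matrix ι ι F) * ((x : Matrix ι ι F) - 1) * ((g⁻¹ : GL ι F) : Matrix ι ι F)) ^ k =
          (g : Matrix ι ι F) * (((x : Matrix ι ι F) - 1) ^ k) * ((g⁻¹ : GL ι F) : Matrix ι ι F) := by
        intro k
        exact Units.conj_pow g _ k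
      rw [this, hx.1]
      simp
    · rw [Matrix.rank_mul_eq_left_of_isUnit_det, Matrix.rank_mul_eq_right_of_isUnit_det, hx.2]
      · exact (Matrix.isUnit_iff_isUnit_det _).mp g.isUnit
      · exact (Matrix.isUnit_iff_isUnit_det _).mp (g⁻¹).isUnit

/-- The determinants of the centraliser of a regular unipotent element. -/
theorem map_det_centralizer {n : ℕ} (hn : 1 ≤ n) (hc : Fintype.card ι = n) (x : GL ι F)
    (hx : ((x : Matrix ι ι F) - 1) ^ n = 0 ∧ ((x : Matrix ι ι F) - 1).rank = n - 1) :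
    (Subgroup.centralizer {x}).map (Matrix.GeneralLinearGroup.det) = (powMonoidHom n : Fˣ →* Fˣ).range := by
  classical
  have h := of_matrix (n := n) hx.1 hx.2 hc
  ext a
  constructor
  · rintro ⟨g, hg, rfl⟩
    rw [SetLike.mem_coe, Subgroup.mem_centralizer_singleton_iff] at hg
    have hcomm : Commute (Matrix.toLin' (g : Matrix ι ι F)) (Matrix.toLin' ((x : Matrix ι ι F) - 1)) := by
      show Matrix.toLin' (g : Matrix ι ι F) ∘ₗ Matrix.toLin' ((x : Matrix ι ι F) - 1) = Matrix.toLin' ((x : Matrix ι ι F) - 1) ∘ₗ Matrix.toLin' (g : Matrix ι ι F)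
      rw [← Matrix.toLin'_mul, ← Matrix.toLin'_mul]
      have := congrArg Units.val hg
      rw [Units.val_mul, Units.val_mul] at this
      rw [mul_sub, sub_mul, mul_one, one_mul, this]
    obtain ⟨c, hc2⟩ := h.exists_pol hn hcomm
    have hu : IsUnit (Regular.pol (Matrix.toLin' ((x : Matrix ι ι F) - 1)) c) := by
      rw [← hc2]
      exact g.isUnit.map (Matrix.toLinAlgEquiv' (R := F) (n := ι))
    have hc0 := (h.pol_isUnit_iff hn c).mp hu
    refine ⟨Units.mk0 _ hc0, ?_⟩
    apply Units.ext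
    rw [powMonoidHom_apply, Units.val_pow_eq_pow_val, Units.val_mk0, Matrix.GeneralLinearGroup.val_det_apply, ← det_pol h hn c hc0, ← hc2,
      LinearMap.det_toLin']
  · rintro ⟨c, rfl⟩
    refine ⟨Units.map (Matrix.scalar ι : F →+* Matrix ι ι F).toMonoidHom c, ?_, ?_⟩
    · rw [SetLike.mem_coe, Subgroup.mem_centralizer_singleton_iff]
      apply Units.ext
      rw [Units.val_mul, Units.val_mul]
      exact (Matrix.scalar_commute (c : F) (fun r => Commute.all _ _) _)
    · apply Units.ext
      rw [Matrix.GeneralLinearGroup.val_det_apply, powMonoidHom_apply, Units.val_pow_eq_pow_val]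
      show (Matrix.scalar ι (c : F)).det = (c : F) ^ n
      rw [Matrix.scalar_apply, Matrix.det_diagonal, Finset.prod_const, Finset.card_univ, hc]

end Matrix

theorem card_centralizer_mul {G : Type*} [Group G] [Finite G] (x : G) :
    Nat.card (Subgroup.centralizer {x}) * Nat.card {y : G // IsConj x y} = Nat.card G := by
  rw [Subgroup.nat_card_centralizer_nat_card_stabilizer]
  have h1 : Nat.card G = Nat.card (ConjAct G) := Nat.card_congr (ConjAct.toConjAct (G := G)).toEquiv
  have h2 := MulAction.index_stabilizer (ConjAct G) x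
  rw [h1, ← Subgroup.card_mul_index (MulAction.stabilizer (ConjAct G) x), h2]
  congr 1
  rw [← Nat.card_coe_set_eq]
  refine Nat.card_congr (Equiv.subtypeEquivRight fun y => ?_)
  rw [ConjAct.mem_orbit_conjAct, isConj_comm]

end CfsgLib.Cls
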