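import Cfsg.Agent.EqBase
import Cfsg.Agent.LibDZ19
import Cfsg.Agent.LibQuot19
import Cfsg.Agent.LibNpc9
import Cfsg.Agent.LibCores
/-!
# Codegrees (helper19)
-/
set_option autoImplicit false
set_option linter.all false
open Cfsg CfsgLib.CharBasic
open scoped ComplexConjugate
namespace CfsgLib.Codeg19

universe u v
variable {G : Type u} [Group G] [Finite G]

theorem exists_ker (χ : IrrCharacter G) :
    ∃ K : Subgroup G, K.Normal ∧ (∀ g, g ∈ K ↔ (χ : G → ℂ) g = (χ : G → ℂ) 1) ∧
      Nat.card {g : G // (χ : G → ℂ) g = (χ : G → ℂ) 1} = Nat.card K := by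
  obtain ⟨K, h1, h2⟩ := exists_kernel (irr_isCharacter χ.2)
  refine ⟨K, h1, h2, ?_⟩
  apply Nat.card_congr
  exact Equiv.subtypeEquivRight fun g => (h2 g).symm

theorem codeg_dvd (ψ : IrrCharacter G) :
    Nat.card G / (Nat.card {g : G // (ψ : G → ℂ) g = (ψ : G → ℂ) 1} * charDegree (ψ : G → ℂ)) ∣ Nat.card G := by
  obtain ⟨K, hK, hm, hc⟩ := exists_ker ψ
  rw [hc]
  have h1 := CfsgLib.Quot19.charDegree_dvd_index K ψ.2 (fun n hn => (hm n).1 hn)
  apply Nat.div_dvd_of_dvd
  rw [← Subgroup.card_mul_index K]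
  exact Nat.mul_dvd_mul_left _ h1

/-- the faithful version of a character and its codegree -/
theorem exists_faithful (χ : IrrCharacter G) :
    ∃ (K : Subgroup G) (_ : K.Normal) (χ' : IrrCharacter (G ⧸ K)),
      (∀ g, g ∈ K ↔ (χ : G → ℂ) g = (χ : G → ℂ) 1) ∧ (∀ g : G, (χ' : G ⧸ K → ℂ) g = (χ : G → ℂ) g) ∧
      (∀ q : G ⧸ K, (χ' : G ⧸ K → ℂ) q = (χ' : G ⧸ K → ℂ) 1 → q = 1) ∧
      charDegree (χ' : G ⧸ K → ℂ) = charDegree (χ : G → ℂ) ∧
      Nat.card (G ⧸ K) = (Nat.card G / (Nat.card {g : G // (χ : G → ℂ) g = (χ : G → ℂ) 1} * charDegree (χ : G → ℂ))) *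
        charDegree (χ' : G ⧸ K → ℂ) := by
  obtain ⟨K, hK, hm, hc⟩ := exists_ker χ
  obtain ⟨χ', h1, h2⟩ := CfsgLib.Quot19.irr_deflate K χ.2 (fun n hn => (hm n).1 hn)
  have h3 : charDegree χ' = charDegree (χ : G → ℂ) := by
    have e1 := CfsgLib.CharInt.irr_one_eq_charDegree χ.2
    have e2 := CfsgLib.CharInt.irr_one_eq_charDegree h1
    have e3 := h2 1
    have : (charDegree χ' : ℂ) = charDegree (χ : G → ℂ) := by rw [← e1, ← e2, ← e3]; rfl
    exact_mod_cast this
  refine ⟨K, hK, ⟨χ', h1⟩, hm, h2, ?_, h3, ?_⟩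
  · intro q hq
    obtain ⟨g, rfl⟩ := QuotientGroup.mk_surjective q
    change χ' (g : G ⧸ K) = χ' ((1 : G) : G ⧸ K) at hq
    rw [h2, h2, ← hm] at hq
    exact (QuotientGroup.eq_one_iff g).2 hq
  · rw [hc]
    change _ = _ * charDegree χ'
    rw [h3]
    have h4 := CfsgLib.CharInt2.charDegree_dvd_card h1
    rw [h3] at h4
    obtain ⟨c, hc'⟩ := h4
    have h5 := Subgroup.card_eq_card_quotient_mul_card_subgroup K
    have hpos := CfsgLib.CharInt.irr_charDegree_pos χ.2
    have hK0 : 0 < Nat.card K := Nat.card_pos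
    rw [h5, hc']
    have h6 : charDegree (χ : G → ℂ) * c * Nat.card K = (Nat.card K * charDegree (χ : G → ℂ)) * c := by ring
    rw [h6, Nat.mul_div_cancel_left _ (Nat.mul_pos hK0 hpos)]
    ring

/-- a normal subgroup on which an irreducible character vanishes off the identity is in the kernel -/
theorem ker_of_vanish {χ : G → ℂ} (hirr : IsIrrCharacter G χ) (K : Subgroup G) (hK : K.Normal)
    (hv : ∀ y ∈ K, y ≠ 1 → χ y = 0) : ∀ n ∈ K, χ n = χ 1 := by
  haveI : Fintype G := Fintype.ofFinite G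
  haveI : Fintype K := Fintype.ofFinite K
  have h2 : ∑ n : K, χ (n * 1) = χ 1 := by
    rw [Finset.sum_eq_single (1 : K)]
    · simp
    · intro b _ hb
      rw [mul_one]
      exact hv b b.2 (fun h => hb (Subtype.ext h))
    · intro hcon; exact absurd (Finset.mem_univ _) hcon
  have h3 := CfsgLib.GalChar2.avg_irr K hirr 1
  rw [h2] at h3
  have h4 := irr_one_ne_zero hirr
  have h5 : (Nat.card K : ℂ) ≠ 0 := by exact_mod_cast Nat.card_pos.ne'
  split_ifs at h3 with h6
  · exact h6
  · exact absurd h3 (mul_ne_zero (inv_ne_zero h5) h4)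

theorem one_add_sq_le {χ : IrrCharacter G} (hne : (χ : G → ℂ) ≠ fun _ => 1) :
    1 + charDegree (χ : G → ℂ) ^ 2 ≤ Nat.card G := by
  classical
  haveI : Fintype G := Fintype.ofFinite G
  have h2 : ∑ χ : IrrCharacter G, charDegree (χ : G → ℂ) ^ 2 = Nat.card G := by
    have : ((∑ χ : IrrCharacter G, charDegree (χ : G → ℂ) ^ 2 : ℕ) : ℂ) = (Nat.card G : ℂ) := by
      rw [← sum_sq_degree]; push_cast
      exact Finset.sum_congr rfl fun χ _ => by rw [CfsgLib.CharInt.irr_one_eq_charDegree χ.2]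
    exact_mod_cast this
  let e : IrrCharacter G := ⟨fun _ => 1, isIrrCharacter_one⟩
  have he : charDegree (e : G → ℂ) = 1 := by
    have := CfsgLib.CharInt.irr_one_eq_charDegree e.2
    have h5 : (e : G → ℂ) 1 = 1 := rfl
    rw [h5] at this
    exact_mod_cast this.symm
  have hne' : χ ≠ e := fun h => hne (congrArg Subtype.val h)
  rw [← h2, ← Finset.add_sum_erase _ _ (Finset.mem_univ e), he, one_pow]
  gcongr
  exact Finset.single_le_sum (f := fun χ : IrrCharacter G => charDegree (χ : G → ℂ) ^ 2) (fun _ _ => Nat.zero_le _)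
    (Finset.mem_erase.2 ⟨hne', Finset.mem_univ _⟩)

/-- groups with a faithful irreducible character of prime codegree -/
theorem prime_codegree {p : ℕ} [hp : Fact p.Prime] (χ : IrrCharacter G)
    (hfaith : ∀ g : G, (χ : G → ℂ) g = (χ : G → ℂ) 1 → g = 1)
    (hcod : Nat.card G = p * charDegree (χ : G → ℂ)) :
    ∃ P : Subgroup G, P.Normal ∧ Nat.card P = p ∧ (Nat.card P).Coprime P.index ∧
      (∀ z ∈ P, z ≠ 1 → ∀ x : G, x * z = z * x → x ∈ P) := by
  classical
  haveI : Fintype G := Fintype.ofFinite G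
  have hpos := CfsgLib.CharInt.irr_charDegree_pos χ.2
  have hne : (χ : G → ℂ) ≠ fun _ => 1 := by
    intro h
    have h1 : ∀ g : G, g = 1 := fun g => hfaith g (by rw [h])
    have h2 : Nat.card G = 1 := by
      rw [Nat.card_eq_one_iff_unique]
      exact ⟨⟨fun a b => by rw [h1 a, h1 b]⟩, ⟨1⟩⟩
    rw [h2] at hcod
    have := hp.out.one_lt
    have := Nat.mul_le_mul this.le hpos
    nlinarith [hp.out.one_lt]
  have hlt : charDegree (χ : G → ℂ) < p := by
    have h1 := one_add_sq_le hne
    rw [hcod] at h1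
    nlinarith
  have hpd : ¬ p ∣ charDegree (χ : G → ℂ) := Nat.not_dvd_of_pos_of_lt hpos hlt
  have hfac : (Nat.card G).factorization p = 1 := by
    rw [hcod, Nat.factorization_mul hp.out.ne_zero hpos.ne']
    simp [hp.out.factorization_self, Nat.factorization_eq_zero_of_not_dvd hpd]
  obtain ⟨P⟩ : Nonempty (Sylow p G) := inferInstance
  have hcardP : Nat.card (P : Subgroup G) = p := by rw [P.card_eq_multiplicity, hfac, pow_one]
  have hidx : (P : Subgroup G).index = charDegree (χ : G → ℂ) := by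
    have := (P : Subgroup G).card_mul_index
    rw [hcardP, hcod] at this
    exact Nat.eq_of_mul_eq_mul_left hp.out.pos this
  have hsyl : Nat.card (Sylow p G) = 1 := by
    have h1 := card_sylow_modEq_one p G
    have h2 : Nat.card (Sylow p G) ∣ charDegree (χ : G → ℂ) := by rw [← hidx]; exact P.card_dvd_index
    have h3 := Nat.le_of_dvd hpos h2
    have h4 : Nat.card (Sylow p G) % p = 1 % p := h1
    rw [Nat.mod_eq_of_lt (by omega), Nat.mod_eq_of_lt hp.out.one_lt] at h4
    exact h4
  haveI : Subsingleton (Sylow p G) := (Nat.card_eq_one_iff_unique.1 hsyl).1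
  have hPn : (P : Subgroup G).Normal := Sylow.normal_of_subsingleton P
  have hcop : (Nat.card (P : Subgroup G)).Coprime (P : Subgroup G).index := by
    rw [hcardP, hidx]; exact (Nat.Prime.coprime_iff_not_dvd hp.out).2 hpd
  refine ⟨P, hPn, hcardP, hcop, ?_⟩
  -- vanishing
  have hvan : ∀ g : G, ¬ p ∣ orderOf g → g ≠ 1 → (χ : G → ℂ) g = 0 := by
    intro g hg hg1
    obtain ⟨q, hq, hqd⟩ := Nat.exists_prime_and_dvd (n := orderOf g) (by rwa [Ne, orderOf_eq_one_iff])
    haveI : Fact q.Prime := ⟨hq⟩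
    have hqp : q ≠ p := by rintro rfl; exact hg hqd
    apply CfsgLib.DZ19.vanish χ.2 (p := q) _ hqd
    rw [hcod, Nat.factorization_mul hp.out.ne_zero hpos.ne']
    have : p.factorization q = 0 := by
      apply Nat.factorization_eq_zero_of_not_dvd
      intro h
      exact hqp ((Nat.prime_dvd_prime_iff_eq hq hp.out).1 h)
    simp [this]
  -- the centralizer
  let C := Subgroup.centralizer ((P : Subgroup G) : Set G)
  haveI : C.Normal := inferInstance
  have hcomm : ∀ a ∈ (P : Subgroup G), ∀ b ∈ (P : Subgroup G), a * b = b * a := by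
    intro a ha b hb
    haveI : IsCyclic (P : Subgroup G) := isCyclic_of_prime_card hcardP
    have := (IsCyclic.commGroup (α := (P : Subgroup G))).mul_comm ⟨a, ha⟩ ⟨b, hb⟩
    exact congrArg Subtype.val this
  have hPC : (P : Subgroup G) ≤ C := by
    intro a ha
    rw [Subgroup.mem_centralizer_iff]
    intro b hb; exact hcomm b hb a ha
  have hnpc : HasNormalPComplement p C := by
    obtain ⟨Q⟩ : Nonempty (Sylow p C) := inferInstance
    have hQP : ∀ x ∈ (Q : Subgroup C), (x : G) ∈ (P : Subgroup G) := by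
      intro x hx
      have h1 : IsPGroup p ((Q : Subgroup C).map C.subtype) := Q.isPGroup'.map _
      obtain ⟨T, hT⟩ := h1.exists_le_sylow
      have : T = P := Subsingleton.elim _ _
      rw [← this]
      exact hT ⟨x, hx, rfl⟩
    apply CfsgLib.Npc9.hnpc_of_central Q
    intro x _
    rw [Subgroup.mem_centralizer_iff]
    intro y hy
    apply Subtype.ext
    exact (Subgroup.mem_centralizer_iff.1 x.2) y (hQP y hy)
  obtain ⟨k, hk⟩ := CfsgLib.Npc9.hnpc_iff_pPrimeCore.1 hnpc
  haveI : (pPrimeCore p C).Characteristic := CfsgLib.Cores.pPrimeCore_characteristic p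
  have hKn : ((pPrimeCore p C).map C.subtype).Normal := inferInstance
  have hcopK := CfsgLib.Cores.pPrimeCore_coprime (G := C) p
  have hbot : (pPrimeCore p C).map C.subtype = ⊥ := by
    rw [Subgroup.eq_bot_iff_forall]
    intro x hx
    apply hfaith
    apply ker_of_vanish χ.2 _ hKn _ x hx
    rintro _ ⟨y, hy, rfl⟩ hy1
    apply hvan _ _ hy1
    intro hpd'
    have h1 : orderOf y ∣ Nat.card (pPrimeCore p C) := by
      have := orderOf_dvd_natCard (⟨y, hy⟩ : pPrimeCore p C)
      rwa [Subgroup.orderOf_mk] at this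
    have h2 : orderOf (C.subtype y) = orderOf y := Subgroup.orderOf_coe y
    rw [h2] at hpd'
    have h3 := hpd'.trans h1
    have h4 : p ∣ 1 := by
      have := Nat.dvd_gcd h3 (dvd_refl p)
      rwa [hcopK] at this
    exact hp.out.one_lt.ne' (Nat.dvd_one.1 h4)
  have hcore : pPrimeCore p C = ⊥ := by
    rwa [Subgroup.map_eq_bot_iff, Subgroup.ker_subtype, le_bot_iff] at hbot
  rw [hcore, Subgroup.index_bot] at hk
  have hCP : C = (P : Subgroup G) := by
    apply P.is_maximal' _ hPC
    exact IsPGroup.of_card hk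
  -- centralizers of elements
  intro z hz hz1 x hx
  rw [← hCP, Subgroup.mem_centralizer_iff]
  intro y hy
  -- y is a power of z
  have hzp : Subgroup.zpowers z = (P : Subgroup G) := by
    apply Subgroup.eq_of_le_of_card_ge
    · rwa [Subgroup.zpowers_le]
    · rw [hcardP, Nat.card_zpowers]
      have h1 : orderOf z ∣ p := by
        rw [← hcardP]
        have := orderOf_dvd_natCard (⟨z, hz⟩ : (P : Subgroup G))
        rwa [Subgroup.orderOf_mk] at this
      rcases (Nat.dvd_prime hp.out).1 h1 with h2 | h2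
      · exact absurd (orderOf_eq_one_iff.1 h2) hz1
      · rw [h2]
  have hy' : y ∈ Subgroup.zpowers z := by rw [hzp]; exact hy
  obtain ⟨n, rfl⟩ := Subgroup.mem_zpowers_iff.1 hy'
  have hc : Commute x z := hx
  exact ((hc.zpow_right n).eq).symm

end CfsgLib.Codeg19
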