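import Cfsg.Agent.EqBase
import Cfsg.Agent.LibClassAlg
import Cfsg.Agent.LibQuot19
/-!
# Commutator counting (helper19)
-/
set_option autoImplicit false
set_option linter.all false
open Cfsg CfsgLib.CharBasic
open scoped ComplexConjugate
namespace CfsgLib.Comm19

universe u
variable {G : Type u} [Group G] [Fintype G]

/-- generalized orthogonality -/
theorem sum_inv_mul {χ : G → ℂ} (hχ : IsIrrCharacter G χ) (y : G) :
    ∑ b : G, χ b⁻¹ * χ (b * y) = (Nat.card G : ℂ) * χ y / χ 1 := by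
  have hcl : IsClassFunction G (fun x => χ x⁻¹) := by
    intro x h
    have : (h * x * h⁻¹)⁻¹ = h * x⁻¹ * h⁻¹ := by group
    simp only [this]
    exact irr_classFun hχ _ _
  rw [CfsgLib.CharInt.irr_sum_mul hχ hcl y]
  have h1 := irr_inner_self hχ
  unfold classInner at h1
  have hc : (Nat.card G : ℂ) ≠ 0 := by exact_mod_cast Nat.card_pos.ne'
  have h2 : ∑ x : G, χ x⁻¹ * χ x = Nat.card G := by
    have h3 : ∑ x : G, χ x⁻¹ * χ x = ∑ g : G, χ g * (starRingEnd ℂ) (χ g) :=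
      Finset.sum_congr rfl fun x _ => by rw [char_inv_eq_conj (irr_isCharacter hχ)]; ring
    rw [h3]
    field_simp at h1
    exact h1
  rw [h2]; ring

/-- the commutator sum -/
theorem sum_comm_char {χ : G → ℂ} (hχ : IsIrrCharacter G χ) (y : G) :
    ∑ a : G, ∑ b : G, χ (a * b * a⁻¹ * b⁻¹ * y) = (Nat.card G : ℂ) ^ 2 / χ 1 ^ 2 * χ y := by
  have hne : χ 1 ≠ 0 := irr_one_ne_zero hχ
  rw [Finset.sum_comm]
  have h1 : ∀ b : G, ∑ a : G, χ (a * b * a⁻¹ * b⁻¹ * y) = (Nat.card G : ℂ) * (χ b * χ (b⁻¹ * y) / χ 1) := by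
    intro b
    rw [← CfsgLib.ClassAlg.sum_conj_mul hχ b (b⁻¹ * y)]
    exact Finset.sum_congr rfl fun a _ => by rw [mul_assoc]
  rw [Finset.sum_congr rfl fun b _ => h1 b]
  have h2 := sum_inv_mul hχ y
  have h3 : ∑ b : G, χ b * χ (b⁻¹ * y) = ∑ b : G, χ b⁻¹ * χ (b * y) := by
    apply Fintype.sum_equiv (Equiv.inv G)
    intro b; simp
  rw [← Finset.mul_sum, ← Finset.sum_div, h3, h2]
  field_simp

open Classical in
/-- the delta function -/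
theorem delta_eq (x : G) : ∑ χ : IrrCharacter G, (χ : G → ℂ) 1 * (χ : G → ℂ) x =
    if x = 1 then (Nat.card G : ℂ) else 0 := by
  split_ifs with h
  · rw [h, ← sum_sq_degree]
    exact Finset.sum_congr rfl fun χ _ => by ring
  · exact sum_degree_mul x h

open Classical in
theorem card_prod_two_comm (g : G) :
    (Nat.card {x : (G × G) × (G × G) // (x.1.1 * x.1.2 * x.1.1⁻¹ * x.1.2⁻¹) * (x.2.1 * x.2.2 * x.2.1⁻¹ * x.2.2⁻¹) = g} : ℂ) =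
      (Nat.card G : ℂ) ^ 3 * ∑ χ : IrrCharacter G, (χ : G → ℂ) g⁻¹ / (χ : G → ℂ) 1 ^ 3 := by
  have hc : (Nat.card G : ℂ) ≠ 0 := by exact_mod_cast Nat.card_pos.ne'
  rw [Nat.card_eq_fintype_card, Fintype.card_subtype, Finset.card_filter]
  push_cast
  have h1 : ∀ x : (G × G) × (G × G),
      (if (x.1.1 * x.1.2 * x.1.1⁻¹ * x.1.2⁻¹) * (x.2.1 * x.2.2 * x.2.1⁻¹ * x.2.2⁻¹) = g then (1 : ℂ) else 0) =
      (Nat.card G : ℂ)⁻¹ * ∑ χ : IrrCharacter G, (χ : G → ℂ) 1 *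
        (χ : G → ℂ) ((x.1.1 * x.1.2 * x.1.1⁻¹ * x.1.2⁻¹) * ((x.2.1 * x.2.2 * x.2.1⁻¹ * x.2.2⁻¹) * g⁻¹)) := by
    intro x
    rw [delta_eq, ← mul_assoc _ _ g⁻¹, mul_inv_eq_one]
    split_ifs
    · rw [inv_mul_cancel₀ hc]
    · rw [mul_zero]
  rw [Finset.sum_congr rfl fun x _ => h1 x, ← Finset.mul_sum, Finset.sum_comm]
  have h2 : ∀ χ : IrrCharacter G, ∑ x : (G × G) × (G × G), (χ : G → ℂ) 1 *
        (χ : G → ℂ) ((x.1.1 * x.1.2 * x.1.1⁻¹ * x.1.2⁻¹) * ((x.2.1 * x.2.2 * x.2.1⁻¹ * x.2.2⁻¹) * g⁻¹)) =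
      (Nat.card G : ℂ) ^ 4 * ((χ : G → ℂ) g⁻¹ / (χ : G → ℂ) 1 ^ 3) := by
    intro χ
    have hne : (χ : G → ℂ) 1 ≠ 0 := irr_one_ne_zero χ.2
    rw [← Finset.mul_sum, Fintype.sum_prod_type, Finset.sum_comm]
    have h3 : ∀ y : G × G, ∑ x : G × G, (χ : G → ℂ) ((x.1 * x.2 * x.1⁻¹ * x.2⁻¹) * ((y.1 * y.2 * y.1⁻¹ * y.2⁻¹) * g⁻¹)) =
        (Nat.card G : ℂ) ^ 2 / (χ : G → ℂ) 1 ^ 2 * (χ : G → ℂ) ((y.1 * y.2 * y.1⁻¹ * y.2⁻¹) * g⁻¹) := by
      intro y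
      rw [Fintype.sum_prod_type]
      exact sum_comm_char χ.2 _
    rw [Finset.sum_congr rfl fun y _ => h3 y, ← Finset.mul_sum, Fintype.sum_prod_type, sum_comm_char χ.2]
    field_simp
  rw [Finset.sum_congr rfl fun χ _ => h2 χ, ← Finset.mul_sum]
  field_simp

end CfsgLib.Comm19
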