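import Mathlib
import Cfsg.Agent.LibGalChar
import Cfsg.Agent.LibBlockR
import Cfsg.Agent.LibLocR
import Cfsg.Agent.LibCharNorm

set_option autoImplicit false
set_option linter.all false

/-! # The ring `ℤ[ζ]`, `ζ` a primitive `p^(n+1)`-st root of unity: Galois averages (helper20) -/

namespace CfsgLib.Zeta20

open Cfsg CfsgLib.GalChar CfsgLib.GalField CfsgLib.BlockR
open scoped ComplexConjugate

/-- the root of unity -/
noncomputable def zt (p n : ℕ) : ℂ := Complex.exp (2 * Real.pi * Complex.I / ((p ^ (n + 1) : ℕ) : ℂ))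

variable {p : ℕ} [hpf : Fact p.Prime] {n : ℕ}

theorem zt_prim : IsPrimitiveRoot (zt p n) (p ^ (n + 1)) :=
  Complex.isPrimitiveRoot_exp _ (pow_ne_zero _ hpf.out.pos.ne')

theorem zt_pow : zt p n ^ (p ^ (n + 1)) = 1 := zt_prim.pow_eq_one

/-- the ring -/
noncomputable def ZR (p n : ℕ) : Subalgebra ℤ ℂ := Algebra.adjoin ℤ {zt p n}

theorem zt_mem : zt p n ∈ ZR p n := Algebra.subset_adjoin rfl

theorem root_mem {ω : ℂ} (h : ω ^ (p ^ (n + 1)) = 1) : ω ∈ ZR p n := by
  haveI : NeZero (p ^ (n + 1)) := ⟨pow_ne_zero _ hpf.out.pos.ne'⟩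
  obtain ⟨i, -, rfl⟩ := (zt_prim (p := p) (n := n)).eq_pow_of_pow_eq_one h
  exact pow_mem zt_mem _

theorem int_mem (z : ℤ) : (z : ℂ) ∈ ZR p n := by
  have : (z : ℂ) = algebraMap ℤ ℂ z := by simp
  rw [this]; exact Subalgebra.algebraMap_mem _ _

theorem nat_mem (z : ℕ) : (z : ℂ) ∈ ZR p n := by
  have := int_mem (p := p) (n := n) (z : ℤ)
  rwa [Int.cast_natCast] at this

theorem exists_poly {z : ℂ} (hz : z ∈ ZR p n) : ∃ P : Polynomial ℤ, z = Polynomial.aeval (zt p n) P := by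
  unfold ZR at hz
  rw [Algebra.adjoin_singleton_eq_range_aeval] at hz
  obtain ⟨P, hP⟩ := hz
  exact ⟨P, hP.symm⟩

theorem isIntegral_mem {z : ℂ} (hz : z ∈ ZR p n) : IsIntegral ℤ z := by
  obtain ⟨P, rfl⟩ := exists_poly hz
  have h1 : IsIntegral ℤ (zt p n) := (zt_prim (p := p) (n := n)).isIntegral (pow_pos hpf.out.pos _)
  rw [Polynomial.aeval_eq_sum_range]
  apply IsIntegral.sum
  intro i _
  exact (h1.pow i).smul _

theorem ring_mem {M : Ideal AlgInt} (hp : M.IsPrime) {z : ℂ} (hz : z ∈ ZR p n) : MemLocalRing M z :=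
  ringOfInt hp (isIntegral_mem hz)

/-- ring homomorphisms agreeing at `ζ` agree on the ring -/
theorem hom_ext {f g : ℂ →+* ℂ} (h : f (zt p n) = g (zt p n)) {z : ℂ} (hz : z ∈ ZR p n) : f z = g z := by
  obtain ⟨P, rfl⟩ := exists_poly hz
  rw [Polynomial.aeval_eq_sum_range, map_sum, map_sum]
  apply Finset.sum_congr rfl
  intro i _
  rw [zsmul_eq_mul, map_mul, map_mul, map_pow, map_pow, h, map_intCast, map_intCast]

theorem map_mem {f : ℂ →+* ℂ} {z : ℂ} (hz : z ∈ ZR p n) : f z ∈ ZR p n := by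
  obtain ⟨P, rfl⟩ := exists_poly hz
  have h1 : f (zt p n) ∈ ZR p n := root_mem (by rw [← map_pow, zt_pow, map_one])
  rw [Polynomial.aeval_eq_sum_range, map_sum]
  apply Subalgebra.sum_mem
  intro i _
  rw [zsmul_eq_mul, map_mul, map_pow, map_intCast]
  exact mul_mem (int_mem _) (pow_mem h1 _)

theorem conj_mem {z : ℂ} (hz : z ∈ ZR p n) : conj z ∈ ZR p n := map_mem (f := starRingEnd ℂ) hz

/-- the exponents -/
def J (p n : ℕ) : Finset ℕ := (Finset.range (p ^ (n + 1))).filter (fun k => ¬ p ∣ k)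

theorem mem_J {k : ℕ} : k ∈ J p n ↔ k < p ^ (n + 1) ∧ ¬ p ∣ k := by
  unfold J; rw [Finset.mem_filter, Finset.mem_range]

theorem coprime_of_not_dvd {k : ℕ} (h : ¬ p ∣ k) : k.Coprime (p ^ (n + 1)) :=
  Nat.Coprime.pow_right _ ((Nat.Prime.coprime_iff_not_dvd hpf.out).mpr h).symm

theorem card_J : (J p n).card = p ^ n * (p - 1) := by
  rw [← Nat.totient_prime_pow_succ hpf.out n]
  unfold J Nat.totient
  congr 1
  apply Finset.filter_congr
  intro k _
  constructor
  · intro h; exact (coprime_of_not_dvd h).symm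
  · intro h h2
    have h3 : p ∣ Nat.gcd (p ^ (n + 1)) k := Nat.dvd_gcd (dvd_pow_self p (Nat.succ_ne_zero n)) h2
    rw [h] at h3
    exact hpf.out.one_lt.ne' (Nat.dvd_one.mp h3)

theorem card_J_pos : 0 < (J p n).card := by
  rw [card_J]
  have := hpf.out.one_lt
  exact Nat.mul_pos (pow_pos hpf.out.pos _) (by omega)

/-- chosen automorphisms -/
noncomputable def sg (p n : ℕ) [hpf : Fact p.Prime] (k : ℕ) : ℂ ≃+* ℂ :=
  if h : k.Coprime (p ^ (n + 1)) then
    (exists_ringEquiv_pow (p ^ (n + 1)) k (pow_pos hpf.out.pos _) h).choose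
  else RingEquiv.refl ℂ

theorem sg_spec {k : ℕ} (hk : ¬ p ∣ k) {ω : ℂ} (hω : ω ^ (p ^ (n + 1)) = 1) : sg p n k ω = ω ^ k := by
  unfold sg
  rw [dif_pos (coprime_of_not_dvd hk)]
  exact (exists_ringEquiv_pow (p ^ (n + 1)) k (pow_pos hpf.out.pos _) (coprime_of_not_dvd hk)).choose_spec ω hω

theorem sg_zt {k : ℕ} (hk : ¬ p ∣ k) : sg p n k (zt p n) = zt p n ^ k := sg_spec hk zt_pow

theorem pow_mod {ω : ℂ} (hω : ω ^ (p ^ (n + 1)) = 1) (m : ℕ) : ω ^ (m % p ^ (n + 1)) = ω ^ m := by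
  have h : ω ^ m = ω ^ (m % p ^ (n + 1) + p ^ (n + 1) * (m / p ^ (n + 1))) := by rw [Nat.mod_add_div]
  rw [h, pow_add ω, pow_mul, hω, one_pow, mul_one]

/-- the average over the Galois group -/
noncomputable def av (p n : ℕ) [Fact p.Prime] (z : ℂ) : ℂ := ((J p n).card : ℂ)⁻¹ * ∑ k ∈ J p n, sg p n k z

noncomputable def avN (p n : ℕ) [Fact p.Prime] (z : ℂ) : ℝ := ((J p n).card : ℝ)⁻¹ * ∑ k ∈ J p n, ‖sg p n k z‖ ^ 2

theorem av_add (z w : ℂ) : av p n (z + w) = av p n z + av p n w := by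
  unfold av
  rw [← mul_add, ← Finset.sum_add_distrib]
  simp only [map_add]

theorem av_sub (z w : ℂ) : av p n (z - w) = av p n z - av p n w := by
  unfold av
  rw [← mul_sub, ← Finset.sum_sub_distrib]
  simp only [map_sub]

theorem av_neg (z : ℂ) : av p n (-z) = - av p n z := by
  unfold av
  simp only [map_neg, Finset.sum_neg_distrib, mul_neg]

theorem av_zero : av p n 0 = 0 := by
  unfold av
  simp

theorem av_sum {ι : Type*} (s : Finset ι) (f : ι → ℂ) : av p n (∑ i ∈ s, f i) = ∑ i ∈ s, av p n (f i) := by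
  unfold av
  simp only [map_sum]
  rw [Finset.sum_comm, Finset.mul_sum]

theorem av_intmul (c : ℤ) (z : ℂ) : av p n ((c : ℂ) * z) = (c : ℂ) * av p n z := by
  unfold av
  simp only [map_mul, map_intCast, ← Finset.mul_sum]
  ring

theorem av_natmul (c : ℕ) (z : ℂ) : av p n ((c : ℂ) * z) = (c : ℂ) * av p n z := by
  have := av_intmul (p := p) (n := n) (c : ℤ) z
  rwa [Int.cast_natCast] at this

theorem av_int (c : ℤ) : av p n (c : ℂ) = c := by
  unfold av
  simp only [map_intCast, Finset.sum_const, nsmul_eq_mul]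
  have h : ((J p n).card : ℂ) ≠ 0 := by exact_mod_cast (card_J_pos (p := p) (n := n)).ne'
  field_simp

theorem av_nat (c : ℕ) : av p n (c : ℂ) = c := by
  have := av_int (p := p) (n := n) (c : ℤ)
  rwa [Int.cast_natCast] at this

theorem sg_conj {k : ℕ} (hk : ¬ p ∣ k) {z : ℂ} (hz : z ∈ ZR p n) : sg p n k (conj z) = conj (sg p n k z) := by
  have h1 : ((sg p n k).toRingHom.comp (starRingEnd ℂ)) z = ((starRingEnd ℂ).comp (sg p n k).toRingHom) z := by
    apply hom_ext _ hz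
    change sg p n k (conj (zt p n)) = conj (sg p n k (zt p n))
    rw [sg_zt hk, sg_spec hk, map_pow]
    rw [← map_pow, zt_pow, map_one]
  exact h1

theorem av_norm {z : ℂ} (hz : z ∈ ZR p n) : av p n (z * conj z) = (avN p n z : ℂ) := by
  unfold av avN
  push_cast
  congr 1
  apply Finset.sum_congr rfl
  intro k hk
  rw [map_mul, sg_conj (mem_J.mp hk).2 hz, Complex.mul_conj, Complex.normSq_eq_norm_sq]
  push_cast; rfl

theorem avN_nonneg (z : ℂ) : 0 ≤ avN p n z := by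
  unfold avN
  positivity

theorem closed {z : ℂ} (hz : z ∈ ZR p n) (σ : ℂ ≃+* ℂ) : ∃ τ : ℕ → ℕ,
    (∀ i ∈ J p n, ∀ j ∈ J p n, τ i = τ j → i = j) ∧ (∀ i ∈ J p n, τ i ∈ J p n) ∧
      ∀ i ∈ J p n, sg p n (τ i) z = σ (sg p n i z) := by
  haveI : NeZero (p ^ (n + 1)) := ⟨pow_ne_zero _ hpf.out.pos.ne'⟩
  have hσζ : IsPrimitiveRoot (σ (zt p n)) (p ^ (n + 1)) := (zt_prim (p := p) (n := n)).map_of_injective σ.injective
  obtain ⟨m, hm, hm', hm2⟩ := (zt_prim (p := p) (n := n)).isPrimitiveRoot_iff.1 hσζ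
  have hpm : ¬ p ∣ m := by
    intro h
    have h3 : p ∣ Nat.gcd m (p ^ (n + 1)) := Nat.dvd_gcd h (dvd_pow_self p (Nat.succ_ne_zero n))
    rw [hm'] at h3
    exact hpf.out.one_lt.ne' (Nat.dvd_one.mp h3)
  have hτ : ∀ i, ¬ p ∣ i → ¬ p ∣ (m * i) % p ^ (n + 1) := by
    intro i hi h
    have h1 : p ∣ m * i := by
      rw [← Nat.mod_add_div (m * i) (p ^ (n + 1))]
      exact dvd_add h (dvd_mul_of_dvd_left (dvd_pow_self p (Nat.succ_ne_zero n)) _)
    rcases (Nat.Prime.dvd_mul hpf.out).mp h1 with h2 | h2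
    · exact hpm h2
    · exact hi h2
  refine ⟨fun i => (m * i) % p ^ (n + 1), ?_, ?_, ?_⟩
  · intro i hi j hj h
    have h1 : m * i ≡ m * j [MOD p ^ (n + 1)] := h
    have h2 : i ≡ j [MOD p ^ (n + 1)] :=
      Nat.ModEq.cancel_left_of_coprime (by rw [Nat.gcd_comm]; exact hm') h1
    rw [← Nat.mod_eq_of_lt (mem_J.mp hi).1, ← Nat.mod_eq_of_lt (mem_J.mp hj).1]
    exact h2
  · intro i hi
    rw [mem_J]
    exact ⟨Nat.mod_lt _ (pow_pos hpf.out.pos _), hτ i (mem_J.mp hi).2⟩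
  · intro i hi
    have h1 : ((sg p n ((m * i) % p ^ (n + 1))).toRingHom) z = (σ.toRingHom.comp (sg p n i).toRingHom) z := by
      apply hom_ext _ hz
      change sg p n ((m * i) % p ^ (n + 1)) (zt p n) = σ (sg p n i (zt p n))
      rw [sg_zt (hτ i (mem_J.mp hi).2), sg_zt (mem_J.mp hi).2, pow_mod zt_pow, map_pow, ← hm2, ← pow_mul]
    exact h1

theorem one_le_avN {z : ℂ} (hz : z ∈ ZR p n) (h0 : z ≠ 0) : 1 ≤ avN p n z := by
  have h1 := card_le_sum_norm_sq_of_closed (J p n) (fun k => sg p n k z)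
    (fun k _ => isIntegral_mem (map_mem (f := (sg p n k).toRingHom) hz))
    (fun k _ h => h0 ((map_eq_zero (sg p n k)).mp h)) (closed hz)
  unfold avN
  have h2 : (0 : ℝ) < (J p n).card := by exact_mod_cast card_J_pos
  rw [inv_mul_eq_div, le_div_iff₀ h2, one_mul]
  exact h1

theorem avN_natmul (c : ℕ) (z : ℂ) : avN p n ((c : ℂ) * z) = (c : ℝ) ^ 2 * avN p n z := by
  unfold avN
  simp only [map_mul, map_natCast, norm_mul, Complex.norm_natCast, mul_pow, ← Finset.mul_sum]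
  ring

/-! ### the unique prime above `p` -/

theorem one_sub_ideal {M : Ideal AlgInt} (hM : IsPModular p M) {ω : ℂ} (hω : ω ^ (p ^ (n + 1)) = 1) :
    MemLocalIdeal M (1 - ω) := by
  have hp := isPrime_of_modular hM
  have hωi : IsIntegral ℤ ω := CfsgLib.CharNorm.isIntegral_of_pow (pow_ne_zero _ hpf.out.pos.ne') hω
  apply CfsgLib.LocR.memI_sub_of_pow_ppow hM (ring_one hp) (ringOfInt hp hωi) (n + 1)
  rw [one_pow, hω, sub_self]
  exact ideal_zero hp

/-- polynomial division at `1` -/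
theorem poly_split (P : Polynomial ℤ) (ω : ℂ) (hω : ω ^ (p ^ (n + 1)) = 1) :
    ∃ w ∈ ZR p n, Polynomial.aeval ω P = ((P.eval 1 : ℤ) : ℂ) - (1 - ω) * w := by
  have h1 : (Polynomial.X - Polynomial.C (1 : ℤ)) ∣ P - Polynomial.C (P.eval 1) := Polynomial.X_sub_C_dvd_sub_C_eval
  obtain ⟨R, hR⟩ := h1
  have h2 : P = Polynomial.C (P.eval 1) + (Polynomial.X - Polynomial.C (1 : ℤ)) * R := by
    rw [← hR]; ring
  refine ⟨Polynomial.aeval ω R, ?_, ?_⟩
  · rw [Polynomial.aeval_eq_sum_range]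
    apply Subalgebra.sum_mem
    intro i _
    rw [zsmul_eq_mul]
    exact mul_mem (int_mem _) (pow_mem (root_mem hω) _)
  · conv_lhs => rw [h2]
    simp only [map_add, map_mul, map_sub, Polynomial.aeval_X, Polynomial.aeval_C]
    simp
    ring

/-- `p = (1 - ζ) w`. -/
theorem p_eq : ∃ w ∈ ZR p n, (p : ℂ) = (1 - zt p n) * w := by
  obtain ⟨w, hw, h⟩ := poly_split (p := p) (n := n) (Polynomial.cyclotomic (p ^ (n + 1)) ℤ) (zt p n) zt_pow
  rw [Polynomial.eval_one_cyclotomic_prime_pow] at h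
  have h1 : Polynomial.aeval (zt p n) (Polynomial.cyclotomic (p ^ (n + 1)) ℤ) = 0 := by
    haveI : NeZero (((p ^ (n + 1) : ℕ)) : ℂ) := ⟨by exact_mod_cast (pow_ne_zero _ hpf.out.pos.ne')⟩
    have h2 := (Polynomial.isRoot_cyclotomic_iff (n := p ^ (n + 1)) (R := ℂ)).mpr (zt_prim (p := p) (n := n))
    rw [Polynomial.IsRoot.def, ← Polynomial.map_cyclotomic (p ^ (n + 1)) (algebraMap ℤ ℂ),
      Polynomial.eval_map_algebraMap] at h2
    exact h2
  rw [h1] at h
  refine ⟨w, hw, ?_⟩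
  have h3 : ((p : ℤ) : ℂ) = (p : ℂ) := by simp
  rw [← h3]
  linear_combination -h

/-- an element of `ℤ[ζ]` in the local ideal is divisible by `1 - ζ`. -/
theorem div_pi {M : Ideal AlgInt} (hM : IsPModular p M) {z : ℂ} (hz : z ∈ ZR p n) (h : MemLocalIdeal M z) :
    ∃ z' ∈ ZR p n, z = (1 - zt p n) * z' := by
  have hp := isPrime_of_modular hM
  obtain ⟨P, rfl⟩ := exists_poly hz
  obtain ⟨w, hw, hP⟩ := poly_split (p := p) (n := n) P (zt p n) zt_pow
  rw [hP] at h
  have h1 : MemLocalIdeal M (((P.eval 1 : ℤ) : ℂ)) := by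
    have h2 := ideal_mul_right hp (one_sub_ideal (p := p) (n := n) hM (zt_pow (p := p) (n := n))) (ring_mem hp hw)
    have h3 := ideal_add hp h h2
    rwa [sub_add_cancel] at h3
  rw [ideal_int_iff hM] at h1
  obtain ⟨t, ht⟩ := h1
  obtain ⟨u, hu, hpu⟩ := p_eq (p := p) (n := n)
  refine ⟨u * t - w, sub_mem (mul_mem hu (int_mem _)) hw, ?_⟩
  rw [hP, ht]
  push_cast
  rw [hpu]
  ring

/-- `p` is `(1 - ζ)^φ` times a unit of `ℤ[ζ]` -/
theorem p_unit : ∃ u ∈ ZR p n, ∃ v ∈ ZR p n, u * v = 1 ∧ (p : ℂ) = (1 - zt p n) ^ (J p n).card * u := by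
  classical
  haveI : NeZero (p ^ (n + 1)) := ⟨pow_ne_zero _ hpf.out.pos.ne'⟩
  have h1 : (p : ℂ) = ∏ μ ∈ primitiveRoots (p ^ (n + 1)) ℂ, (1 - μ) := by
    have h2 := Polynomial.cyclotomic_eq_prod_X_sub_primitiveRoots (zt_prim (p := p) (n := n))
    have h3 := congrArg (Polynomial.eval 1) h2
    rw [Polynomial.eval_one_cyclotomic_prime_pow, Polynomial.eval_prod] at h3
    simpa using h3
  have h2 : primitiveRoots (p ^ (n + 1)) ℂ = (J p n).image (fun k => zt p n ^ k) := by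
    ext μ
    rw [mem_primitiveRoots (pow_pos hpf.out.pos _), Finset.mem_image]
    constructor
    · intro h
      obtain ⟨m, hm, hm', hm2⟩ := (zt_prim (p := p) (n := n)).isPrimitiveRoot_iff.1 h
      refine ⟨m, mem_J.mpr ⟨hm, ?_⟩, hm2⟩
      intro hd
      have h3 : p ∣ Nat.gcd m (p ^ (n + 1)) := Nat.dvd_gcd hd (dvd_pow_self p (Nat.succ_ne_zero n))
      rw [hm'] at h3
      exact hpf.out.one_lt.ne' (Nat.dvd_one.mp h3)
    · rintro ⟨k, hk, rfl⟩
      exact (zt_prim (p := p) (n := n)).pow_of_coprime k (coprime_of_not_dvd (mem_J.mp hk).2)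
  rw [h2, Finset.prod_image] at h1
  swap
  · intro i hi j hj h
    exact (zt_prim (p := p) (n := n)).pow_inj (mem_J.mp hi).1 (mem_J.mp hj).1 h
  -- each factor
  have h3 : ∀ k ∈ J p n, ∃ s ∈ ZR p n, ∃ t ∈ ZR p n, s * t = 1 ∧ 1 - zt p n ^ k = (1 - zt p n) * s := by
    intro k hk
    have hkp := (mem_J.mp hk).2
    have hne : 1 - zt p n ≠ 0 := by
      intro h
      have h4 : zt p n = 1 := (sub_eq_zero.mp h).symm
      have h5 := zt_prim (p := p) (n := n)
      rw [h4] at h5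
      have h6 := h5.unique IsPrimitiveRoot.one
      exact (Nat.one_lt_pow (Nat.succ_ne_zero n) hpf.out.one_lt).ne' h6
    obtain ⟨k', hk'⟩ : ∃ k' : ℕ, k * k' ≡ 1 [MOD p ^ (n + 1)] := by
      obtain ⟨m, hm⟩ := Nat.exists_mul_mod_eq_one_of_coprime (coprime_of_not_dvd (n := n) hkp)
        (Nat.one_lt_pow (Nat.succ_ne_zero n) hpf.out.one_lt)
      exact ⟨m, by rw [Nat.ModEq, hm.2, Nat.mod_eq_of_lt (Nat.one_lt_pow (Nat.succ_ne_zero n) hpf.out.one_lt)]⟩
    have hkk : zt p n ^ (k * k') = zt p n := by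
      rw [← pow_mod zt_pow (k * k'), hk', pow_mod zt_pow, pow_one]
    have hs := mul_neg_geom_sum (zt p n) k
    have ht := mul_neg_geom_sum (zt p n ^ k) k'
    rw [← pow_mul, hkk] at ht
    refine ⟨∑ i ∈ Finset.range k, zt p n ^ i, Subalgebra.sum_mem _ (fun i _ => pow_mem zt_mem i),
      ∑ i ∈ Finset.range k', (zt p n ^ k) ^ i, Subalgebra.sum_mem _ (fun i _ => pow_mem (pow_mem zt_mem k) i), ?_, hs.symm⟩
    apply mul_left_cancel₀ hne
    rw [← mul_assoc, hs, ht, mul_one]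
  choose! s hs t ht hst hks using h3
  refine ⟨∏ k ∈ J p n, s k, Subalgebra.prod_mem _ hs, ∏ k ∈ J p n, t k, Subalgebra.prod_mem _ ht, ?_, ?_⟩
  · rw [← Finset.prod_mul_distrib]
    exact Finset.prod_eq_one hst
  · rw [h1, Finset.prod_congr rfl hks, Finset.prod_mul_distrib, Finset.prod_const]

/-- an element of `ℤ[ζ]` locally divisible by `p ^ h` at one modular ideal is divisible by `p ^ h`. -/
theorem div_p {M : Ideal AlgInt} (hM : IsPModular p M) {z : ℂ} (hz : z ∈ ZR p n) {h : ℕ}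
    (hd : MemLocalRing M (z / (p : ℂ) ^ h)) : ∃ z' ∈ ZR p n, z = (p : ℂ) ^ h * z' := by
  have hp := isPrime_of_modular hM
  have hpc : (p : ℂ) ≠ 0 := by exact_mod_cast hpf.out.pos.ne'
  obtain ⟨u, hu, v, hv, huv, hpu⟩ := p_unit (p := p) (n := n)
  have hne : 1 - zt p n ≠ 0 := by
    intro h
    rw [h, zero_pow (card_J_pos (p := p) (n := n)).ne', zero_mul] at hpu
    exact hpc hpu
  have hone : ∀ {z : ℂ}, z ∈ ZR p n → MemLocalRing M (z / (p : ℂ)) → ∃ z' ∈ ZR p n, z = (p : ℂ) * z' := by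
    intro z hz hr
    have key : ∀ m, m ≤ (J p n).card → ∃ y ∈ ZR p n, z = (1 - zt p n) ^ m * y := by
      intro m
      induction m with
      | zero => intro _; exact ⟨z, hz, by rw [pow_zero, one_mul]⟩
      | succ m ih =>
        intro hm
        obtain ⟨y, hy, hzy⟩ := ih (by omega)
        have h1 : MemLocalIdeal M y := by
          have h2 : y = (z / (p : ℂ)) * (((1 - zt p n) * (1 - zt p n) ^ ((J p n).card - m - 1)) * u) := by
            have h3 : (1 - zt p n) ^ (J p n).card = (1 - zt p n) ^ m * ((1 - zt p n) * (1 - zt p n) ^ ((J p n).card - m - 1)) := by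
              rw [← pow_succ', ← pow_add]
              congr 1; omega
            have h4 : (p : ℂ) = (1 - zt p n) ^ m * ((1 - zt p n) * (1 - zt p n) ^ ((J p n).card - m - 1)) * u := by
              rw [← h3]; exact hpu
            have hm0 : (1 - zt p n) ^ m ≠ 0 := pow_ne_zero _ hne
            apply mul_left_cancel₀ hm0
            rw [← hzy]
            have h5 : (1 - zt p n) ^ m * (z / (p : ℂ) * ((1 - zt p n) * (1 - zt p n) ^ ((J p n).card - m - 1) * u)) =
              z * (((1 - zt p n) ^ m * ((1 - zt p n) * (1 - zt p n) ^ ((J p n).card - m - 1)) * u) / (p : ℂ)) := by ring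
            rw [h5, ← h4, div_self hpc, mul_one]
          rw [h2]
          apply ideal_mul_left hp hr
          apply ideal_mul_right hp _ (ring_mem hp hu)
          exact ideal_mul_right hp (one_sub_ideal (p := p) (n := n) hM zt_pow)
            (ring_mem hp (pow_mem (sub_mem (one_mem _) zt_mem) _))
        obtain ⟨y', hy', hyy⟩ := div_pi hM hy h1
        refine ⟨y', hy', ?_⟩
        rw [hzy, hyy, pow_succ, mul_assoc]
    obtain ⟨y, hy, hzy⟩ := key _ le_rfl
    refine ⟨v * y, mul_mem hv hy, ?_⟩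
    rw [hzy]
    calc (1 - zt p n) ^ (J p n).card * y = (1 - zt p n) ^ (J p n).card * (u * v) * y := by rw [huv, mul_one]
      _ = ((1 - zt p n) ^ (J p n).card * u) * (v * y) := by ring
      _ = _ := by rw [← hpu]
  induction h generalizing z with
  | zero => exact ⟨z, hz, by rw [pow_zero, one_mul]⟩
  | succ h ih =>
    have h1 : MemLocalRing M (z / (p : ℂ)) := by
      have h2 : z / (p : ℂ) = (p : ℂ) ^ h * (z / (p : ℂ) ^ (h + 1)) := by
        rw [pow_succ]
        field_simp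
      rw [h2]
      exact ring_mul hp (ring_pow hp (ring_nat hp p) _) hd
    obtain ⟨y, hy, hzy⟩ := hone hz h1
    have h2 : MemLocalRing M (y / (p : ℂ) ^ h) := by
      have h3 : y / (p : ℂ) ^ h = z / (p : ℂ) ^ (h + 1) := by
        rw [hzy, pow_succ]; field_simp
      rw [h3]; exact hd
    obtain ⟨y', hy', hyy⟩ := ih hy h2
    exact ⟨y', hy', by rw [hzy, hyy, pow_succ]; ring⟩

theorem avN_of_div {M : Ideal AlgInt} (hM : IsPModular p M) {z : ℂ} (hz : z ∈ ZR p n) (h0 : z ≠ 0) {h : ℕ}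
    (hd : MemLocalRing M (z / (p : ℂ) ^ h)) : (p : ℝ) ^ (2 * h) ≤ avN p n z := by
  obtain ⟨z', hz', rfl⟩ := div_p hM hz hd
  have h1 : z' ≠ 0 := right_ne_zero_of_mul h0
  have h2 := one_le_avN hz' h1
  have h3 : avN p n ((p : ℂ) ^ h * z') = ((p : ℝ) ^ h) ^ 2 * avN p n z' := by
    have := avN_natmul (p := p) (n := n) (p ^ h) z'
    push_cast at this
    exact this
  rw [h3, ← pow_mul, mul_comm h 2]
  have h4 : (0 : ℝ) ≤ (p : ℝ) ^ (2 * h) := by positivity
  nlinarith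

/-- complex conjugation is trivial modulo the ideal -/
theorem conj_congr {M : Ideal AlgInt} (hM : IsPModular p M) {z : ℂ} (hz : z ∈ ZR p n) :
    MemLocalIdeal M (z - conj z) := by
  have hp := isPrime_of_modular hM
  obtain ⟨P, rfl⟩ := exists_poly hz
  have hc : conj (Polynomial.aeval (zt p n) P) = Polynomial.aeval (conj (zt p n)) P := by
    rw [Polynomial.aeval_eq_sum_range, Polynomial.aeval_eq_sum_range, map_sum]
    apply Finset.sum_congr rfl
    intro i _
    rw [zsmul_eq_mul, zsmul_eq_mul, map_mul, map_pow, map_intCast]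
  have hcp : (conj (zt p n)) ^ (p ^ (n + 1)) = 1 := by rw [← map_pow, zt_pow, map_one]
  obtain ⟨w, hw, h1⟩ := poly_split (p := p) (n := n) P (zt p n) zt_pow
  obtain ⟨w', hw', h2⟩ := poly_split (p := p) (n := n) P (conj (zt p n)) hcp
  rw [hc, h1, h2]
  have h3 : (((P.eval 1 : ℤ) : ℂ) - (1 - zt p n) * w) - (((P.eval 1 : ℤ) : ℂ) - (1 - conj (zt p n)) * w') =
    (1 - conj (zt p n)) * w' - (1 - zt p n) * w := by ring
  rw [h3]
  exact ideal_sub hp (ideal_mul_right hp (one_sub_ideal (p := p) (n := n) hM hcp) (ring_mem hp hw'))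
    (ideal_mul_right hp (one_sub_ideal (p := p) (n := n) hM zt_pow) (ring_mem hp hw))

/-! ### the case `p = 2` -/

section Two

variable {n : ℕ}

theorem av_root_two {ω : ℂ} (hω : ω ^ (2 ^ (n + 1)) = 1) :
    av 2 n ω = if ω ^ 2 = 1 then ω else 0 := by
  classical
  have h1 : ∑ k ∈ J 2 n, sg 2 n k ω = ∑ t ∈ Finset.range (2 ^ n), ω ^ (2 * t + 1) := by
    symm
    refine Finset.sum_bij (fun t _ => 2 * t + 1) ?_ ?_ ?_ ?_
    · intro t ht
      rw [Finset.mem_range] at ht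
      rw [mem_J]
      constructor
      · rw [pow_succ]; omega
      · omega
    · intro t _ t' _ h
      have h' : 2 * t + 1 = 2 * t' + 1 := h
      omega
    · intro k hk
      rw [mem_J] at hk
      refine ⟨k / 2, ?_, ?_⟩
      · rw [Finset.mem_range]
        have := hk.1
        rw [pow_succ] at this
        omega
      · have := hk.2
        change 2 * (k / 2) + 1 = k
        omega
    · intro t _
      rw [sg_spec (by omega) hω]
  have hcard : (J 2 n).card = 2 ^ n := by rw [card_J]; simp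
  unfold av
  rw [h1, hcard]
  have h2 : ∀ t, ω ^ (2 * t + 1) = ω * (ω ^ 2) ^ t := by
    intro t; rw [pow_succ, pow_mul, mul_comm]
  simp only [h2, ← Finset.mul_sum]
  have h20 : ((2 ^ n : ℕ) : ℂ) ≠ 0 := by exact_mod_cast (pow_pos (by norm_num : 0 < 2) n).ne'
  split_ifs with h
  · rw [h]
    simp only [one_pow, Finset.sum_const, Finset.card_range, nsmul_eq_mul, mul_one]
    rw [mul_comm ω, ← mul_assoc, inv_mul_cancel₀ h20, one_mul]
  · have h3 := mul_geom_sum (ω ^ 2) (2 ^ n)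
    have h4 : (ω ^ 2) ^ (2 ^ n) = 1 := by rw [← pow_mul, ← pow_succ']; exact hω
    rw [h4, sub_self] at h3
    rcases mul_eq_zero.mp h3 with h5 | h5
    · exact absurd (sub_eq_zero.mp h5) h
    · rw [h5, mul_zero, mul_zero]

theorem zt_half : zt 2 n ^ (2 ^ n) = -1 := by
  have h1 : (zt 2 n ^ (2 ^ n)) ^ 2 = 1 := by rw [← pow_mul, ← pow_succ]; exact zt_pow
  rcases (show zt 2 n ^ (2 ^ n) = 1 ∨ zt 2 n ^ (2 ^ n) = -1 from by
    have h0 : (zt 2 n ^ (2 ^ n) - 1) * (zt 2 n ^ (2 ^ n) + 1) = 0 := by linear_combination h1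
    rcases mul_eq_zero.mp h0 with h | h
    · exact Or.inl (sub_eq_zero.mp h)
    · exact Or.inr (eq_neg_of_add_eq_zero_left h)) with h | h
  · exfalso
    have h2 := (zt_prim (p := 2) (n := n)).pow_eq_one_iff_dvd (2 ^ n) |>.mp h
    have h3 := Nat.le_of_dvd (by positivity) h2
    rw [pow_succ] at h3
    have : 0 < 2 ^ n := by positivity
    omega
  · exact h

theorem exists_coeff {z : ℂ} (hz : z ∈ ZR 2 n) : ∃ a : ℕ → ℤ, z = ∑ j ∈ Finset.range (2 ^ n), (a j : ℂ) * zt 2 n ^ j := by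
  obtain ⟨P, rfl⟩ := exists_poly hz
  set Q : Polynomial ℤ := Polynomial.X ^ (2 ^ n) + Polynomial.C 1 with hQ
  have hN : 2 ^ n ≠ 0 := (pow_pos (by norm_num : 0 < 2) n).ne'
  have hmon : Q.Monic := Polynomial.monic_X_pow_add_C _ hN
  have hroot : Polynomial.aeval (zt 2 n) Q = 0 := by
    rw [hQ]
    simp only [map_add, map_pow, Polynomial.aeval_X, Polynomial.aeval_C, zt_half]
    simp
  have hdeg : (P %ₘ Q).natDegree < 2 ^ n := by
    have h1 : Q.natDegree = 2 ^ n := Polynomial.natDegree_X_pow_add_C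
    rw [← h1]
    apply Polynomial.natDegree_modByMonic_lt _ hmon
    intro h
    rw [h] at h1
    simp at h1
    exact hN h1.symm
  refine ⟨fun j => (P %ₘ Q).coeff j, ?_⟩
  have h2 := Polynomial.modByMonic_add_div P Q
  conv_lhs => rw [← h2]
  rw [map_add, map_mul, hroot, zero_mul, add_zero, Polynomial.aeval_eq_sum_range' hdeg]
  apply Finset.sum_congr rfl
  intro j _
  rw [zsmul_eq_mul]

theorem av_conj {z : ℂ} (hz : z ∈ ZR 2 n) : av 2 n (conj z) = conj (av 2 n z) := by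
  unfold av
  rw [map_mul, map_inv₀, map_natCast, map_sum]
  congr 1
  apply Finset.sum_congr rfl
  intro k hk
  exact sg_conj (mem_J.mp hk).2 hz

theorem conj_zt_pow (j : ℕ) : zt 2 n ^ j * conj (zt 2 n ^ j) = 1 := by
  rw [Complex.mul_conj, Complex.normSq_eq_norm_sq, norm_pow]
  have h1 : ‖zt 2 n‖ = 1 := (zt_prim (p := 2) (n := n)).norm'_eq_one (pow_ne_zero _ (by norm_num))
  rw [h1]; simp

/-- extraction of a coefficient -/
theorem av_coeff {a : ℕ → ℤ} {j : ℕ} (hj : j < 2 ^ n) :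
    av 2 n ((∑ i ∈ Finset.range (2 ^ n), (a i : ℂ) * zt 2 n ^ i) * conj (zt 2 n ^ j)) = a j := by
  classical
  rw [Finset.sum_mul, av_sum, Finset.sum_eq_single j]
  · rw [mul_assoc, conj_zt_pow, mul_one, av_int]
  · intro i hi hij
    rw [Finset.mem_range] at hi
    rw [mul_assoc, av_intmul, av_root_two, if_neg, mul_zero]
    · intro h
      -- ω = ζ^i conj ζ^j, ω² = 1
      have h1 : zt 2 n ^ (2 * i) = zt 2 n ^ (2 * j) := by
        have h2 : (zt 2 n ^ i) ^ 2 * (conj (zt 2 n ^ j)) ^ 2 = 1 := by rw [← mul_pow]; exact h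
        have h3 : (zt 2 n ^ j) ^ 2 * (conj (zt 2 n ^ j)) ^ 2 = 1 := by rw [← mul_pow, conj_zt_pow, one_pow]
        have h4 : (conj (zt 2 n ^ j)) ^ 2 ≠ 0 := by
          intro h5; rw [h5, mul_zero] at h3; exact zero_ne_one h3
        have h5 := mul_right_cancel₀ h4 (h2.trans h3.symm)
        rw [mul_comm 2 i, mul_comm 2 j, pow_mul, pow_mul]
        exact h5
      have h6 := (zt_prim (p := 2) (n := n)).pow_inj (by rw [pow_succ]; omega) (by rw [pow_succ]; omega) h1
      omega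
    · rw [mul_pow, ← map_pow, ← pow_mul, ← pow_mul, mul_comm i, mul_comm j, pow_mul, pow_mul, zt_pow]
      simp
  · intro h
    exact absurd (Finset.mem_range.mpr hj) h

/-- for real `z ∈ ℤ[ζ]` (`p = 2`) the average is an integer congruent to `z`. -/
theorem av_two_real {M : Ideal AlgInt} (hM : IsPModular 2 M) {z : ℂ} (hz : z ∈ ZR 2 n) (hr : conj z = z) :
    ∃ a : ℤ, av 2 n z = a ∧ MemLocalIdeal M (z - a) := by
  classical
  have hp := isPrime_of_modular hM
  obtain ⟨a, ha⟩ := exists_coeff hz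
  have hN : 0 < 2 ^ n := pow_pos (by norm_num) n
  have hco : ∀ j, j < 2 ^ n → av 2 n (z * conj (zt 2 n ^ j)) = a j := fun j hj => by
    conv_lhs => rw [ha]
    exact av_coeff hj
  refine ⟨a 0, ?_, ?_⟩
  · have h1 := hco 0 hN
    rw [pow_zero, map_one, mul_one] at h1
    exact h1
  -- antisymmetry
  have hanti : ∀ j, 1 ≤ j → j < 2 ^ n → a j = - a (2 ^ n - j) := by
    intro j hj1 hj2
    have h1 : (a j : ℂ) = av 2 n (z * zt 2 n ^ j) := by
      have h2 := congrArg conj (hco j hj2)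
      rw [map_intCast, ← av_conj (mul_mem hz (conj_mem (pow_mem zt_mem _))), map_mul, hr, Complex.conj_conj] at h2
      exact h2.symm
    have h2 : zt 2 n ^ j = - conj (zt 2 n ^ (2 ^ n - j)) := by
      have h3 : zt 2 n ^ j * zt 2 n ^ (2 ^ n - j) = -1 := by
        rw [← pow_add, ← zt_half (n := n)]; congr 1; omega
      have h4 := conj_zt_pow (n := n) (2 ^ n - j)
      have h5 : zt 2 n ^ (2 ^ n - j) ≠ 0 := by intro h; rw [h, zero_mul] at h4; exact zero_ne_one h4
      apply mul_right_cancel₀ h5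
      rw [h3]
      linear_combination h4
    rw [h2, mul_neg, av_neg, hco _ (by omega)] at h1
    exact_mod_cast h1
  have hsum : ∑ j ∈ Finset.Ico 1 (2 ^ n), a j = 0 := by
    have h1 : ∑ j ∈ Finset.Ico 1 (2 ^ n), a j = ∑ j ∈ Finset.Ico 1 (2 ^ n), - a (2 ^ n - j) := by
      apply Finset.sum_congr rfl
      intro j hj
      rw [Finset.mem_Ico] at hj
      exact hanti j hj.1 hj.2
    have h2 : ∑ j ∈ Finset.Ico 1 (2 ^ n), a (2 ^ n - j) = ∑ j ∈ Finset.Ico 1 (2 ^ n), a j := by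
      refine Finset.sum_bij (fun j _ => 2 ^ n - j) ?_ ?_ ?_ ?_
      · intro j hj; rw [Finset.mem_Ico] at hj ⊢; omega
      · intro j hj j' hj' h
        rw [Finset.mem_Ico] at hj hj'
        have h' : 2 ^ n - j = 2 ^ n - j' := h
        omega
      · intro j hj
        rw [Finset.mem_Ico] at hj
        exact ⟨2 ^ n - j, by rw [Finset.mem_Ico]; omega, by change 2 ^ n - (2 ^ n - j) = j; omega⟩
      · intro j _; rfl
    rw [Finset.sum_neg_distrib, h2] at h1
    omega
  have h3 : z - (a 0 : ℂ) = - ∑ j ∈ Finset.range (2 ^ n), (a j : ℂ) * (1 - zt 2 n ^ j) := by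
    have h4 : ∑ j ∈ Finset.range (2 ^ n), (a j : ℂ) = (a 0 : ℂ) := by
      rw [Finset.range_eq_Ico, Finset.sum_eq_sum_Ico_succ_bot hN]
      have h5 : ∑ k ∈ Finset.Ico (0 + 1) (2 ^ n), (a k : ℂ) = ((∑ j ∈ Finset.Ico 1 (2 ^ n), a j : ℤ) : ℂ) := by
        push_cast; rfl
      rw [h5, hsum]; simp
    conv_lhs => rw [ha, ← h4]
    simp only [mul_sub, mul_one, Finset.sum_sub_distrib]
    ring
  rw [h3]
  apply ideal_neg
  apply ideal_sum hp
  intro j _
  apply ideal_mul_left hp (ring_int hp _)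
  apply one_sub_ideal (p := 2) (n := n) hM
  rw [← pow_mul, mul_comm, pow_mul, zt_pow, one_pow]

end Two

end CfsgLib.Zeta20
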