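import Mathlib
import Cfsg.Agent.LibZeta20
import Cfsg.Agent.LibBlockSec3
import Cfsg.Agent.LibBrLeon

set_option autoImplicit false
set_option linter.all false
set_option maxHeartbeats 1000000

/-! # Contributions of a subsection `(x, b)` (helper20) -/

namespace CfsgLib.Contrib20

open CfsgLib.CharInt hiding irr_isCharacter irr_classFun irr_one_ne_zero schur_scalar
open Cfsg CfsgLib.CharInt2 CfsgLib.CharBasic CfsgLib.BlockR CfsgLib.BlockCore
  CfsgLib.BlockIdem CfsgLib.BlockIdeal CfsgLib.BlockConj CfsgLib.BlockBrauer CfsgLib.BlockInd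
  CfsgLib.BlockFMT CfsgLib.BlockFMT2 CfsgLib.PLocalInd CfsgLib.BlockOrth CfsgLib.BlockDefect
  CfsgLib.BlockReg CfsgLib.BlockReg2 CfsgLib.BlockCount CfsgLib.BlockCount2 CfsgLib.BlockQP
  CfsgLib.BlockCov2 CfsgLib.BlockCov3 CfsgLib.BlockCov4 CfsgLib.BlockLoc CfsgLib.BlockM
  CfsgLib.BlockH CfsgLib.BlockH2 CfsgLib.CharNorm CfsgLib.BlockSec CfsgLib.BlockSec2
  CfsgLib.BlockSec3 CfsgLib.Zeta20
open scoped ComplexConjugate Pointwise

universe u

variable {M : Ideal AlgInt} {p : ℕ} [Fact p.Prime]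

/-! ### the regular space of a block -/

section Reg

variable {H : Type u} [Group H] [Fintype H]

/-- `m(η,η') = p^q [η⁰, η']` -/
noncomputable def mb (p : ℕ) [Fact p.Prime] (b : Set (IrrCharacter H)) (η η' : IrrCharacter H) : ℤ :=
  cc p η η' / ((p ^ ((Nat.card H).factorization p - blockDefect p b) : ℕ) : ℤ)

theorem mb_cc (hM : IsPModular p M) {b : Set (IrrCharacter H)} (hb : IsPBlock M b) {η : IrrCharacter H}
    (hη : η ∈ b) (η' : IrrCharacter H) :
    cc p η η' = ((p ^ ((Nat.card H).factorization p - blockDefect p b) : ℕ) : ℤ) * mb p b η η' := by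
  obtain ⟨m, hm, -⟩ := exists_m hM hb hη
  unfold mb
  rw [hm η', Int.mul_ediv_cancel_left]
  exact_mod_cast (pow_pos (Fact.out : p.Prime).pos _).ne'

theorem inner_reg_reg (f g : H → ℂ) : classInner (reg p f) (reg p g) = classInner (reg p f) g := by
  rw [← inner_reg_adj, reg_reg]

theorem mb_spec (hM : IsPModular p M) {b : Set (IrrCharacter H)} (hb : IsPBlock M b) {η : IrrCharacter H}
    (hη : η ∈ b) (η' : IrrCharacter H) :
    ((p ^ blockDefect p b : ℕ) : ℂ) * classInner (reg p (η : H → ℂ)) (reg p (η' : H → ℂ)) = mb p b η η' := by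
  rw [inner_reg_reg]
  have h1 := cc_spec (p := p) η η'
  rw [mb_cc hM hb hη] at h1
  have hd := defect_le p b
  have h2 : (p ^ (Nat.card H).factorization p : ℕ) =
      p ^ ((Nat.card H).factorization p - blockDefect p b) * p ^ blockDefect p b := by
    rw [← pow_add]; congr 1; omega
  have h3 : ((p ^ ((Nat.card H).factorization p - blockDefect p b) : ℕ) : ℂ) ≠ 0 := by
    exact_mod_cast (pow_pos (Fact.out : p.Prime).pos _).ne'
  apply mul_left_cancel₀ h3
  rw [h2] at h1
  rw [← mul_assoc, ← Nat.cast_mul, h1]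
  push_cast
  rfl

theorem mb_symm (hM : IsPModular p M) {b : Set (IrrCharacter H)} (hb : IsPBlock M b) {η η' : IrrCharacter H}
    (hη : η ∈ b) (hη' : η' ∈ b) : mb p b η η' = mb p b η' η := by
  have h1 := mb_cc (p := p) hM hb hη η'
  have h2 := mb_cc (p := p) hM hb hη' η
  rw [cc_symm, h2] at h1
  have h3 : ((p ^ ((Nat.card H).factorization p - blockDefect p b) : ℕ) : ℤ) ≠ 0 := by
    exact_mod_cast (pow_pos (Fact.out : p.Prime).pos _).ne'
  exact (mul_left_cancel₀ h3 h1).symm

/-- the reduced degree -/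
noncomputable def vv (p : ℕ) (b : Set (IrrCharacter H)) (η : IrrCharacter H) : ℕ :=
  charDegree (η : H → ℂ) / p ^ ((Nat.card H).factorization p - blockDefect p b)

theorem vv_spec (hM : IsPModular p M) {b : Set (IrrCharacter H)} (hb : IsPBlock M b) {η : IrrCharacter H}
    (hη : η ∈ b) : charDegree (η : H → ℂ) =
      p ^ ((Nat.card H).factorization p - blockDefect p b) * vv p b η :=
  (Nat.mul_div_cancel' (pow_dvd_degree hM hb hη)).symm

theorem vv_pos (hM : IsPModular p M) {b : Set (IrrCharacter H)} (hb : IsPBlock M b) {η : IrrCharacter H}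
    (hη : η ∈ b) : 0 < vv p b η := by
  have h1 := vv_spec hM hb hη
  have h2 := irr_charDegree_pos η.2
  rcases Nat.eq_zero_or_pos (vv p b η) with h | h
  · rw [h, mul_zero] at h1; omega
  · exact h

theorem vv_unit (hM : IsPModular p M) {b : Set (IrrCharacter H)} (hb : IsPBlock M b) {η : IrrCharacter H}
    (hη : η ∈ b) (h0 : blockHeight p b (η : H → ℂ) = 0) : ¬ p ∣ vv p b η := by
  intro h
  obtain ⟨c, hc⟩ := h
  have h1 := vv_spec hM hb hη
  have h2 := degree_eq hM hb hη
  have h3 : p ^ ((Nat.card H).factorization p - blockDefect p b + 1) ∣ charDegree (η : H → ℂ) := by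
    rw [h1, hc, pow_succ]
    exact ⟨c, by ring⟩
  rw [Nat.Prime.pow_dvd_iff_le_factorization (Fact.out : p.Prime) (irr_charDegree_pos η.2).ne'] at h3
  have := defect_le p b
  omega

/-- the quotient `m(η,η')/v_η'` -/
theorem mb_div (hM : IsPModular p M) {b : Set (IrrCharacter H)} (hb : IsPBlock M b) {η η' : IrrCharacter H}
    (hη : η ∈ b) (hη' : η' ∈ b) :
    (mb p b η η' : ℂ) / (vv p b η' : ℂ) = (cc p η η' : ℂ) / (charDegree (η' : H → ℂ) : ℂ) := by
  rw [mb_cc hM hb hη η', vv_spec hM hb hη']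
  push_cast
  have h3 : ((p : ℂ) ^ ((Nat.card H).factorization p - blockDefect p b)) ≠ 0 :=
    pow_ne_zero _ (by exact_mod_cast (Fact.out : p.Prime).pos.ne')
  rw [mul_div_mul_left _ _ h3]

/-- the matrix `m` has rank one modulo the ideal -/
theorem rank_one (hM : IsPModular p M) {b : Set (IrrCharacter H)} (hb : IsPBlock M b) :
    ∃ c0 : ℂ, MemLocalRing M c0 ∧ ¬ MemLocalIdeal M c0 ∧ ∀ η ∈ b, ∀ η' ∈ b,
      MemLocalIdeal M ((mb p b η η' : ℂ) - c0 * vv p b η * vv p b η') := by
  have hp := isPrime_of_modular hM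
  obtain ⟨ξ, hξ, hξ0⟩ := exists_height_zero hM hb
  have hξ0' : blockHeight p b (ξ : H → ℂ) = 0 := (height_zero_iff hM hb hξ).mpr hξ0
  have hv : ¬ p ∣ vv p b ξ := vv_unit hM hb hξ hξ0'
  have hinv : MemLocalRing M ((vv p b ξ : ℂ)⁻¹) := ring_inv_nat hM hv
  have hv0 : (vv p b ξ : ℂ) ≠ 0 := by exact_mod_cast (vv_pos hM hb hξ).ne'
  -- for all η, η' in b
  have key : ∀ η ∈ b, ∀ η' ∈ b, ∀ η'' ∈ b,
      MemLocalIdeal M ((mb p b η η' : ℂ) / (vv p b η' : ℂ) - (mb p b η η'' : ℂ) / (vv p b η'' : ℂ)) := by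
    intro η hη η' hη' η'' hη''
    rw [mb_div hM hb hη hη', mb_div hM hb hη hη'']
    have := inner_div_congr hM η (sameBlock_of_mem hp hb hη' hη'')
    rwa [ci_smul_l, ci_smul_l, cc_spec, cc_spec] at this
  have hkr : ∀ η ∈ b, ∀ η' ∈ b, MemLocalRing M ((mb p b η η' : ℂ) / (vv p b η' : ℂ)) := by
    intro η hη η' hη'
    rw [mb_div hM hb hη hη']
    exact cc_div_ring hM η η'
  refine ⟨(mb p b ξ ξ : ℂ) / (vv p b ξ) * (vv p b ξ : ℂ)⁻¹, ring_mul hp (hkr ξ hξ ξ hξ) hinv, ?_, ?_⟩
  · intro h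
    have h1 : (mb p b ξ ξ : ℂ) / (vv p b ξ) = ((mb p b ξ ξ : ℂ) / (vv p b ξ) * (vv p b ξ : ℂ)⁻¹) * vv p b ξ := by
      field_simp
    have h2 : MemLocalIdeal M ((mb p b ξ ξ : ℂ) / (vv p b ξ)) := by
      rw [h1]; exact ideal_mul_right hp h (ring_nat hp _)
    rw [mb_div hM hb hξ hξ] at h2
    exact (cc_unit_iff hM hb hξ hξ).mpr hξ0' h2
  · intro η hη η' hη'
    have hv' : (vv p b η' : ℂ) ≠ 0 := by exact_mod_cast (vv_pos hM hb hη').ne'
    have hv1 : (vv p b η : ℂ) ≠ 0 := by exact_mod_cast (vv_pos hM hb hη).ne'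
    -- m η η' ≡ v' * (m η ξ / v_ξ)
    have h1 : MemLocalIdeal M ((mb p b η η' : ℂ) - (mb p b η ξ : ℂ) * (vv p b ξ : ℂ)⁻¹ * vv p b η') := by
      have := ideal_mul_right hp (key η hη η' hη' ξ hξ) (ring_nat hp (vv p b η'))
      have h2 : ((mb p b η η' : ℂ) / (vv p b η' : ℂ) - (mb p b η ξ : ℂ) / (vv p b ξ : ℂ)) * (vv p b η' : ℂ) =
        (mb p b η η' : ℂ) - (mb p b η ξ : ℂ) * (vv p b ξ : ℂ)⁻¹ * vv p b η' := by field_simp
      rwa [h2] at this
    have h2 : MemLocalIdeal M ((mb p b η ξ : ℂ) - (mb p b ξ ξ : ℂ) * (vv p b ξ : ℂ)⁻¹ * vv p b η) := by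
      rw [mb_symm hM hb hη hξ]
      have := ideal_mul_right hp (key ξ hξ η hη ξ hξ) (ring_nat hp (vv p b η))
      have h2 : ((mb p b ξ η : ℂ) / (vv p b η : ℂ) - (mb p b ξ ξ : ℂ) / (vv p b ξ : ℂ)) * (vv p b η : ℂ) =
        (mb p b ξ η : ℂ) - (mb p b ξ ξ : ℂ) * (vv p b ξ : ℂ)⁻¹ * vv p b η := by field_simp
      rwa [h2] at this
    have h3 : MemLocalIdeal M (((mb p b η ξ : ℂ) - (mb p b ξ ξ : ℂ) * (vv p b ξ : ℂ)⁻¹ * vv p b η) *
        ((vv p b ξ : ℂ)⁻¹ * vv p b η')) :=
      ideal_mul_right hp h2 (ring_mul hp hinv (ring_nat hp _))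
    have h4 := ideal_add hp h1 h3
    have h5 : ((mb p b η η' : ℂ) - (mb p b η ξ : ℂ) * (vv p b ξ : ℂ)⁻¹ * vv p b η') +
        ((mb p b η ξ : ℂ) - (mb p b ξ ξ : ℂ) * (vv p b ξ : ℂ)⁻¹ * vv p b η) * ((vv p b ξ : ℂ)⁻¹ * vv p b η') =
        (mb p b η η' : ℂ) - (mb p b ξ ξ : ℂ) / (vv p b ξ) * (vv p b ξ : ℂ)⁻¹ * vv p b η * vv p b η' := by
      ring
    rwa [h5] at h4

/-- the space spanned by the regular parts of the members of `b` -/
def InV (p : ℕ) (b : Set (IrrCharacter H)) (f : H → ℂ) : Prop :=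
  IsClassFunction H f ∧ reg p f = f ∧ ∀ η : IrrCharacter H, η ∉ b → classInner f (η : H → ℂ) = 0

theorem reg_add (f g : H → ℂ) : reg p (f + g) = reg p f + reg p g := by
  funext x
  by_cases hx : p ∣ orderOf x
  · rw [Pi.add_apply, reg_not hx, reg_not hx, reg_not hx, add_zero]
  · rw [Pi.add_apply, reg_of hx, reg_of hx, reg_of hx, Pi.add_apply]

theorem reg_smul (c : ℂ) (f : H → ℂ) : reg p (c • f) = c • reg p f := by
  funext x
  by_cases hx : p ∣ orderOf x
  · rw [Pi.smul_apply, reg_not hx, reg_not hx, smul_zero]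
  · rw [Pi.smul_apply, reg_of hx, reg_of hx, Pi.smul_apply]

theorem reg_sum {ι : Type*} (s : Finset ι) (f : ι → H → ℂ) :
    reg p (∑ i ∈ s, f i) = ∑ i ∈ s, reg p (f i) := by
  classical
  induction s using Finset.induction_on with
  | empty =>
    rw [Finset.sum_empty, Finset.sum_empty]
    funext x
    by_cases hx : p ∣ orderOf x
    · rw [reg_not hx]; rfl
    · rw [reg_of hx]
  | insert a s ha ih => rw [Finset.sum_insert ha, Finset.sum_insert ha, reg_add, ih]

theorem inV_reg (hM : IsPModular p M) {b : Set (IrrCharacter H)} (hb : IsPBlock M b) {η : IrrCharacter H}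
    (hη : η ∈ b) : InV p b (reg p (η : H → ℂ)) := by
  have hp := isPrime_of_modular hM
  refine ⟨reg_classFun (irr_classFun η.2), reg_reg _, ?_⟩
  intro η' hη'
  apply inner_reg_zero hM
  intro h
  exact hη' (mem_of_sameBlock hp hb hη h)

theorem inV_add {b : Set (IrrCharacter H)} {f g : H → ℂ} (hf : InV p b f) (hg : InV p b g) : InV p b (f + g) := by
  refine ⟨classFun_add hf.1 hg.1, by rw [reg_add, hf.2.1, hg.2.1], ?_⟩
  intro η hη
  rw [ci_add_l, hf.2.2 η hη, hg.2.2 η hη, add_zero]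

theorem inV_smul {b : Set (IrrCharacter H)} (c : ℂ) {f : H → ℂ} (hf : InV p b f) : InV p b (c • f) := by
  refine ⟨classFun_smul c hf.1, by rw [reg_smul, hf.2.1], ?_⟩
  intro η hη
  rw [ci_smul_l, hf.2.2 η hη, mul_zero]

theorem inV_zero (b : Set (IrrCharacter H)) : InV p b (0 : H → ℂ) := by
  refine ⟨fun _ _ => rfl, ?_, fun η _ => ci_zero_l _⟩
  funext x
  by_cases hx : p ∣ orderOf x
  · rw [reg_not hx]; rfl
  · rw [reg_of hx]

theorem inV_sum {b : Set (IrrCharacter H)} {ι : Type*} (s : Finset ι) (f : ι → H → ℂ)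
    (h : ∀ i ∈ s, InV p b (f i)) : InV p b (∑ i ∈ s, f i) := by
  classical
  induction s using Finset.induction_on with
  | empty => rw [Finset.sum_empty]; exact inV_zero b
  | insert a s ha ih =>
    rw [Finset.sum_insert ha]
    exact inV_add (h a (Finset.mem_insert_self _ _)) (ih fun i hi => h i (Finset.mem_insert_of_mem hi))

theorem inV_parseval {b : Set (IrrCharacter H)} {f g : H → ℂ} (hf : InV p b f) (hg : InV p b g) :
    classInner f g = ∑ η : IrrCharacter H, ind b η * (classInner f (η : H → ℂ) * conj (classInner g (η : H → ℂ))) := by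
  rw [parseval hf.1 hg.1]
  apply Finset.sum_congr rfl
  intro η _
  by_cases hη : η ∈ b
  · rw [ind_of hη, one_mul]
  · rw [hf.2.2 η hη, zero_mul, mul_zero]

end Reg

/-! ### contributions -/

section Con

variable {G : Type u} [Group G] [Fintype G] {x : G}

/-- the translate of a function by `x`, on the centralizer -/
def tr (x : G) (χ : G → ℂ) : Subgroup.centralizer ({x} : Set G) → ℂ :=
  fun c => χ (x * (c : G))

variable [Fintype (Subgroup.centralizer ({x} : Set G))]

theorem tr_classFun {χ : G → ℂ} (h : IsClassFunction G χ) :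
    IsClassFunction (Subgroup.centralizer ({x} : Set G)) (tr x χ) := translate_classFun h

/-- the `b`-part of the translate on the regular elements -/
noncomputable def th (p : ℕ) (b : Set (IrrCharacter (Subgroup.centralizer ({x} : Set G))))
    (χ : IrrCharacter G) : Subgroup.centralizer ({x} : Set G) → ℂ :=
  reg p (blockPart b (tr x (χ : G → ℂ)))

/-- the coefficient -/
noncomputable def wc (χ : IrrCharacter G) (η : IrrCharacter (Subgroup.centralizer ({x} : Set G))) : ℂ :=
  classInner (tr x (χ : G → ℂ)) (η : Subgroup.centralizer ({x} : Set G) → ℂ)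

/-- the contribution -/
noncomputable def con (p : ℕ) (b : Set (IrrCharacter (Subgroup.centralizer ({x} : Set G))))
    (χ ψ : IrrCharacter G) : ℂ :=
  ((p ^ blockDefect p b : ℕ) : ℂ) * classInner (th p b χ) (th p b ψ)

variable {b : Set (IrrCharacter (Subgroup.centralizer ({x} : Set G)))}

theorem th_expand (χ : IrrCharacter G) : th p b χ =
    ∑ η : IrrCharacter (Subgroup.centralizer ({x} : Set G)), (ind b η * wc χ η) •
      reg p (η : Subgroup.centralizer ({x} : Set G) → ℂ) := by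
  funext c
  rw [Finset.sum_apply]
  unfold th
  by_cases hc : p ∣ orderOf c
  · rw [reg_not hc]
    symm
    apply Finset.sum_eq_zero
    intro η _
    rw [Pi.smul_apply, reg_not hc, smul_zero]
  · rw [reg_of hc, blockPart_expand]
    apply Finset.sum_congr rfl
    intro η _
    rw [Pi.smul_apply, reg_of hc, smul_eq_mul, wc, mul_assoc]

theorem th_inV (hM : IsPModular p M) (hb : IsPBlock M b) (χ : IrrCharacter G) : InV p b (th p b χ) := by
  rw [th_expand]
  apply inV_sum
  intro η _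
  by_cases hη : η ∈ b
  · exact inV_smul _ (inV_reg hM hb hη)
  · rw [ind_not hη, zero_mul, zero_smul]; exact inV_zero b

theorem con_conj (χ ψ : IrrCharacter G) : conj (con p b χ ψ) = con p b ψ χ := by
  unfold con
  rw [map_mul, map_natCast, ci_conj]

/-- the main reduction: pairing against a function of the space -/
theorem inner_th (hM : IsPModular p M) (hb : IsPBlock M b) (χ : IrrCharacter G)
    {f : Subgroup.centralizer ({x} : Set G) → ℂ} (hf : InV p b f) :
    classInner (th p b χ) f = classInner (tr x (χ : G → ℂ)) f := by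
  have h1 : classInner (th p b χ) f = classInner (blockPart b (tr x (χ : G → ℂ))) f := by
    unfold th
    rw [inner_reg_adj, hf.2.1]
  rw [h1, parseval (blockPart_classFun b _) hf.1, parseval (tr_classFun (irr_classFun χ.2)) hf.1]
  apply Finset.sum_congr rfl
  intro η _
  by_cases hη : η ∈ b
  · congr 1
    have h2 : blockPart b (tr x (χ : G → ℂ)) = ∑ η : IrrCharacter (Subgroup.centralizer ({x} : Set G)),
      (ind b η * classInner (tr x (χ : G → ℂ)) (η : Subgroup.centralizer ({x} : Set G) → ℂ)) •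
        (η : Subgroup.centralizer ({x} : Set G) → ℂ) := by
      funext c
      rw [blockPart_expand, Finset.sum_apply]
      apply Finset.sum_congr rfl
      intro η _
      rw [Pi.smul_apply, smul_eq_mul, mul_assoc]
    rw [h2, inner_comb, ind_of hη, one_mul]
  · rw [hf.2.2 η hη, map_zero, mul_zero, mul_zero]

/-- `Σ_ψ [f,θ_ψ][θ_ψ,g] = [f,g]` -/
theorem resolution (hM : IsPModular p M) (hx : ∃ k : ℕ, orderOf x = p ^ k) (hb : IsPBlock M b)
    {f g : Subgroup.centralizer ({x} : Set G) → ℂ} (hf : InV p b f) (hg : InV p b g) :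
    ∑ ψ : IrrCharacter G, classInner f (th p b ψ) * classInner (th p b ψ) g = classInner f g := by
  classical
  have hCne : (Nat.card (Subgroup.centralizer ({x} : Set G)) : ℂ) ≠ 0 := by exact_mod_cast Nat.card_pos.ne'
  have h1 : ∀ ψ : IrrCharacter G, classInner f (th p b ψ) * classInner (th p b ψ) g =
      (Nat.card (Subgroup.centralizer ({x} : Set G)) : ℂ)⁻¹ ^ 2 *
        ∑ c : Subgroup.centralizer ({x} : Set G), ∑ c' : Subgroup.centralizer ({x} : Set G),
          f c * conj (g c') * (((ψ : G → ℂ) (x * (c' : G))) * conj ((ψ : G → ℂ) (x * (c : G)))) := by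
    intro ψ
    have h2 : classInner f (th p b ψ) = conj (classInner (tr x (ψ : G → ℂ)) f) := by
      rw [← inner_th hM hb ψ hf, ci_conj]
    rw [h2, inner_th hM hb ψ hg]
    unfold classInner tr
    rw [map_mul, map_inv₀, map_natCast, map_sum, sq]
    rw [show ∀ a b c d : ℂ, (a * b) * (c * d) = (a * c) * (b * d) from fun a b c d => by ring]
    rw [Finset.sum_mul_sum]
    congr 1
    apply Finset.sum_congr rfl
    intro c _
    apply Finset.sum_congr rfl
    intro c' _
    rw [map_mul, Complex.conj_conj]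
    ring
  simp only [h1]
  rw [← Finset.mul_sum, Finset.sum_comm]
  have h3 : ∀ c : Subgroup.centralizer ({x} : Set G), ∑ ψ : IrrCharacter G,
      ∑ c' : Subgroup.centralizer ({x} : Set G),
          f c * conj (g c') * (((ψ : G → ℂ) (x * (c' : G))) * conj ((ψ : G → ℂ) (x * (c : G)))) =
      (Nat.card (Subgroup.centralizer ({x} : Set G)) : ℂ) * (f c * conj (g c)) := by
    intro c
    rw [Finset.sum_comm]
    by_cases hc : p ∣ orderOf c
    · have hf0 : f c = 0 := by rw [← hf.2.1, reg_not hc]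
      rw [hf0, zero_mul, mul_zero]
      apply Finset.sum_eq_zero; intro c' _
      apply Finset.sum_eq_zero; intro ψ _
      rw [zero_mul, zero_mul]
    · have h4 : ∀ c' : Subgroup.centralizer ({x} : Set G), ∑ ψ : IrrCharacter G,
          f c * conj (g c') * (((ψ : G → ℂ) (x * (c' : G))) * conj ((ψ : G → ℂ) (x * (c : G)))) =
          if IsConj c c' then (Nat.card (Subgroup.centralizer ({c} : Set (Subgroup.centralizer ({x} : Set G)))) : ℂ) *
            (f c * conj (g c)) else 0 := by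
        intro c'
        by_cases hc' : p ∣ orderOf c'
        · have hg0 : g c' = 0 := by rw [← hg.2.1, reg_not hc']
          rw [hg0, map_zero, mul_zero]
          rw [Finset.sum_eq_zero (fun ψ _ => by rw [zero_mul])]
          rw [if_neg]
          intro h
          obtain ⟨t, ht⟩ := isConj_iff.mp h
          apply hc
          rw [← ht, orderOf_conj] at hc'
          exact hc'
        · rw [← Finset.mul_sum, column_orthogonality]
          by_cases h : IsConj c c'
          · rw [if_pos h, if_pos ((isConj_mul_iff x hx hc' hc).mpr h.symm), centralizer_mul_card x hx hc']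
            obtain ⟨t, ht⟩ := isConj_iff.mp h
            have hgc : g c' = g c := by rw [← ht]; exact hg.1 c t
            rw [hgc, mul_comm]
            congr 2
            have h6 : Nat.card (Subgroup.centralizer ({c'} : Set (Subgroup.centralizer ({x} : Set G)))) =
              Nat.card (Subgroup.centralizer ({c} : Set (Subgroup.centralizer ({x} : Set G)))) := by
              have e1 := card_class_mul_card_centralizer c
              have e2 := card_class_mul_card_centralizer c'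
              have e3 : {y | IsConj c' y} = {y | IsConj c y} := by
                ext y
                exact ⟨fun hy => h.trans hy, fun hy => h.symm.trans hy⟩
              have e4 : Nat.card {y // IsConj c' y} = Nat.card {y // IsConj c y} :=
                Nat.card_congr (Equiv.setCongr e3)
              rw [e4, ← e1] at e2
              have e5 : 0 < Nat.card {y // IsConj c y} := by
                haveI : Nonempty {y // IsConj c y} := ⟨⟨c, IsConj.refl c⟩⟩
                exact Nat.card_pos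
              exact Nat.eq_of_mul_eq_mul_left e5 e2
            exact h6
          · rw [if_neg h, if_neg (fun h2 => h ((isConj_mul_iff x hx hc' hc).mp h2).symm), mul_zero]
      simp only [h4]
      rw [← Finset.sum_filter, Finset.sum_const, nsmul_eq_mul, ← mul_assoc]
      congr 1
      have e1 := card_class_mul_card_centralizer c
      rw [← e1, Nat.cast_mul]
      congr 2
      rw [Nat.card_eq_fintype_card, Fintype.card_subtype]
  simp only [h3]
  rw [← Finset.mul_sum, sq]
  unfold classInner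
  rw [show ∀ a b c : ℂ, a * a * (b * c) = (a * b) * (a * c) from fun a b c => by ring,
    inv_mul_cancel₀ hCne, one_mul]

theorem con_mul (hM : IsPModular p M) (hx : ∃ k : ℕ, orderOf x = p ^ k) (hb : IsPBlock M b)
    (χ φ : IrrCharacter G) : ∑ ψ : IrrCharacter G, con p b χ ψ * con p b ψ φ =
      ((p ^ blockDefect p b : ℕ) : ℂ) * con p b χ φ := by
  unfold con
  rw [← resolution hM hx hb (th_inV hM hb χ) (th_inV hM hb φ), Finset.mul_sum, Finset.mul_sum]
  apply Finset.sum_congr rfl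
  intro ψ _
  ring

theorem con_trace (hM : IsPModular p M) (hx : ∃ k : ℕ, orderOf x = p ^ k) (hb : IsPBlock M b) :
    ∑ χ : IrrCharacter G, con p b χ χ = ((p ^ blockDefect p b : ℕ) : ℂ) * (blockRank p b : ℂ) := by
  unfold con
  rw [← Finset.mul_sum, blockRank_eq hM hb]
  congr 1
  have h1 : ∀ χ : IrrCharacter G, classInner (th p b χ) (th p b χ) =
      ∑ η : IrrCharacter (Subgroup.centralizer ({x} : Set G)), ind b η *
        (classInner (reg p (η : Subgroup.centralizer ({x} : Set G) → ℂ)) (th p b χ) *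
          classInner (th p b χ) (reg p (η : Subgroup.centralizer ({x} : Set G) → ℂ))) := by
    intro χ
    rw [inV_parseval (th_inV hM hb χ) (th_inV hM hb χ)]
    apply Finset.sum_congr rfl
    intro η _
    have h2 : classInner (th p b χ) (reg p (η : Subgroup.centralizer ({x} : Set G) → ℂ)) =
        classInner (th p b χ) (η : Subgroup.centralizer ({x} : Set G) → ℂ) := by
      rw [← inner_reg_adj, (th_inV hM hb χ).2.1]
    rw [← h2, ci_conj]
    ring
  simp only [h1]
  rw [Finset.sum_comm]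
  apply Finset.sum_congr rfl
  intro η _
  rw [← Finset.mul_sum]
  by_cases hη : η ∈ b
  · rw [resolution hM hx hb (inV_reg hM hb hη) (inV_reg hM hb hη), inner_reg_reg]
  · rw [ind_not hη, zero_mul, zero_mul]

/-- outside `B` everything vanishes -/
theorem th_zero (hM : IsPModular p M) (hx : ∃ k : ℕ, orderOf x = p ^ k) {B : Set (IrrCharacter G)}
    (hb : IsInducedBlock M (Subgroup.centralizer ({x} : Set G)) b B) {χ : IrrCharacter G} (hχ : χ ∉ B) :
    th p b χ = 0 := by
  have hp := isPrime_of_modular hM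
  funext c
  unfold th
  by_cases hc : p ∣ orderOf c
  · rw [reg_not hc]; rfl
  · rw [reg_of hc]
    have hnot : ¬ IsInducedBlock M (Subgroup.centralizer ({x} : Set G)) b (blockOf M (χ : G → ℂ)) := by
      intro h
      have h2 := induced_unique hp h hb
      rw [← h2] at hχ
      exact hχ (mem_blockOf_self hp χ)
    exact second_main_char hM hx ⟨χ, rfl⟩ (mem_blockOf_self hp χ) hb.1 hnot hc

theorem con_zero_left (hM : IsPModular p M) (hx : ∃ k : ℕ, orderOf x = p ^ k) {B : Set (IrrCharacter G)}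
    (hb : IsInducedBlock M (Subgroup.centralizer ({x} : Set G)) b B) {χ : IrrCharacter G} (hχ : χ ∉ B)
    (ψ : IrrCharacter G) : con p b χ ψ = 0 := by
  unfold con
  rw [th_zero hM hx hb hχ, ci_zero_l, mul_zero]

theorem con_zero_right (hM : IsPModular p M) (hx : ∃ k : ℕ, orderOf x = p ^ k) {B : Set (IrrCharacter G)}
    (hb : IsInducedBlock M (Subgroup.centralizer ({x} : Set G)) b B) (χ : IrrCharacter G) {ψ : IrrCharacter G}
    (hψ : ψ ∉ B) : con p b χ ψ = 0 := by
  rw [← con_conj, con_zero_left hM hx hb hψ, map_zero]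

/-- the coefficients lie in `ℤ[ζ]` -/
theorem wc_mem {n : ℕ} (hn : x ^ (p ^ (n + 1)) = 1) (χ : IrrCharacter G)
    (η : IrrCharacter (Subgroup.centralizer ({x} : Set G))) : wc χ η ∈ ZR p n := by
  have hxC : x ∈ Subgroup.centralizer ({x} : Set G) := by rw [Subgroup.mem_centralizer_singleton_iff]
  set xc : Subgroup.centralizer ({x} : Set G) := ⟨x, hxC⟩ with hxc
  have hcen : ∀ c : Subgroup.centralizer ({x} : Set G), xc * c = c * xc := by
    intro c
    apply Subtype.ext
    exact (Subgroup.mem_centralizer_singleton_iff.mp c.2).symm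
  have hxcc : xc ∈ Subgroup.center (Subgroup.centralizer ({x} : Set G)) := by
    rw [Subgroup.mem_center_iff]; intro c; exact (hcen c).symm
  obtain ⟨l, hl⟩ := CfsgLib.BrLeon.central_hom (Subgroup.center (Subgroup.centralizer ({x} : Set G))).subtype
    (fun z c => (Subgroup.mem_center_iff.mp z.2 c).symm) η.2
  set ω : ℂ := (l ⟨xc, hxcc⟩ : ℂ) with hω
  have hη : ∀ c, (η : Subgroup.centralizer ({x} : Set G) → ℂ) (xc * c) = ω * (η : Subgroup.centralizer ({x} : Set G) → ℂ) c :=
    fun c => hl ⟨xc, hxcc⟩ c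
  have hωp : ω ^ (p ^ (n + 1)) = 1 := by
    have h1 : (⟨xc, hxcc⟩ : Subgroup.center (Subgroup.centralizer ({x} : Set G))) ^ (p ^ (n + 1)) = 1 := by
      apply Subtype.ext
      apply Subtype.ext
      push_cast
      exact hn
    rw [hω, ← Units.val_pow_eq_pow_val, ← map_pow, h1, map_one, Units.val_one]
  have hω0 : ω ≠ 0 := (l ⟨xc, hxcc⟩).ne_zero
  have hcω0 : conj ω ≠ 0 := by rwa [Ne, map_eq_zero]
  obtain ⟨m, hm⟩ := char_mult (isCharacter_restrict (irr_isCharacter χ.2) (Subgroup.centralizer ({x} : Set G)))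
    (irr_isCharacter η.2)
  have key : wc χ η = (conj ω)⁻¹ * (m : ℂ) := by
    rw [← hm]
    unfold wc classInner tr
    rw [← Equiv.sum_comp (Equiv.mulLeft xc) (fun c : Subgroup.centralizer ({x} : Set G) =>
      (χ : G → ℂ) (c : G) * conj ((η : Subgroup.centralizer ({x} : Set G) → ℂ) c))]
    rw [← mul_assoc, mul_comm ((conj ω)⁻¹), mul_assoc, Finset.mul_sum (a := (conj ω)⁻¹)]
    congr 1
    apply Finset.sum_congr rfl
    intro c _
    rw [Equiv.coe_mulLeft, hη, map_mul]
    change (χ : G → ℂ) (x * (c : G)) * _ = (conj ω)⁻¹ * ((χ : G → ℂ) (x * (c : G)) * _)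
    field_simp
  rw [key]
  apply mul_mem
  · apply root_mem
    rw [inv_pow, ← map_pow, hωp, map_one, inv_one]
  · exact nat_mem m

theorem con_expand (χ ψ : IrrCharacter G) : con p b χ ψ =
    ∑ η : IrrCharacter (Subgroup.centralizer ({x} : Set G)),
      ∑ η' : IrrCharacter (Subgroup.centralizer ({x} : Set G)),
        (ind b η * wc χ η) * conj (ind b η' * wc ψ η') *
          (((p ^ blockDefect p b : ℕ) : ℂ) * classInner (reg p (η : Subgroup.centralizer ({x} : Set G) → ℂ))
            (reg p (η' : Subgroup.centralizer ({x} : Set G) → ℂ))) := by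
  unfold con
  rw [th_expand χ, th_expand ψ, ci_sum_l, Finset.mul_sum]
  apply Finset.sum_congr rfl
  intro η _
  rw [ci_smul_l, ci_sum_r, Finset.mul_sum, Finset.mul_sum]
  apply Finset.sum_congr rfl
  intro η' _
  rw [ci_smul_r]
  ring

theorem term_eq (hM : IsPModular p M) (hb : IsPBlock M b) (χ ψ : IrrCharacter G)
    (η η' : IrrCharacter (Subgroup.centralizer ({x} : Set G))) :
    (ind b η * wc χ η) * conj (ind b η' * wc ψ η') *
          (((p ^ blockDefect p b : ℕ) : ℂ) * classInner (reg p (η : Subgroup.centralizer ({x} : Set G) → ℂ))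
            (reg p (η' : Subgroup.centralizer ({x} : Set G) → ℂ))) =
    (ind b η * wc χ η) * conj (ind b η' * wc ψ η') * (mb p b η η' : ℂ) := by
  by_cases hη : η ∈ b
  · rw [mb_spec hM hb hη]
  · rw [ind_not hη]; ring

theorem ind_mem {n : ℕ} (η : IrrCharacter (Subgroup.centralizer ({x} : Set G))) : ind b η ∈ ZR p n := by
  by_cases hη : η ∈ b
  · rw [ind_of hη]; exact one_mem _
  · rw [ind_not hη]; exact zero_mem _

theorem con_mem (hM : IsPModular p M) (hb : IsPBlock M b) {n : ℕ} (hn : x ^ (p ^ (n + 1)) = 1)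
    (χ ψ : IrrCharacter G) : con p b χ ψ ∈ ZR p n := by
  rw [con_expand]
  apply sum_mem; intro η _
  apply sum_mem; intro η' _
  rw [term_eq hM hb]
  exact mul_mem (mul_mem (mul_mem (ind_mem η) (wc_mem hn χ η)) (conj_mem (mul_mem (ind_mem η') (wc_mem hn ψ η'))))
    (int_mem _)

/-- (Broué–Puig) -/
theorem bp (hM : IsPModular p M) {B : Set (IrrCharacter G)} {χ : IrrCharacter G}
    (hχ : χ ∈ B) (h0 : blockHeight p B (χ : G → ℂ) = 0) (hx : ∃ k : ℕ, orderOf x = p ^ k)
    (hb : IsInducedBlock M (Subgroup.centralizer ({x} : Set G)) b B)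
    {ψ : IrrCharacter (Subgroup.centralizer ({x} : Set G))} (hψ : ψ ∈ b) :
    ¬ MemLocalIdeal M (((p ^ (Nat.card (Subgroup.centralizer ({x} : Set G))).factorization p : ℕ) : ℂ) *
      classInner (th p b χ) (ψ : Subgroup.centralizer ({x} : Set G) → ℂ) /
        (charDegree (ψ : Subgroup.centralizer ({x} : Set G) → ℂ) : ℂ)) := by
  classical
  have hp := isPrime_of_modular hM
  intro hcon
  have hψ1 : (ψ : Subgroup.centralizer ({x} : Set G) → ℂ) 1 ≠ 0 := CharBasic.irr_one_ne_zero ψ.2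
  rw [← irr_one_eq_charDegree ψ.2] at hcon
  set ϑ : Subgroup.centralizer ({x} : Set G) → ℂ := tr x (χ : G → ℂ) with hϑ
  have hϑc : IsClassFunction _ ϑ := tr_classFun (irr_classFun χ.2)
  have h1 : classInner (th p b χ) (ψ : Subgroup.centralizer ({x} : Set G) → ℂ) =
      classInner (reg p ϑ) (ψ : Subgroup.centralizer ({x} : Set G) → ℂ) :=
    (inner_reg_blockPart hM hb.1 hϑc hψ).symm
  rw [h1] at hcon
  have h2 := pairing_in hM hb hψ hχ h0
  apply h2
  rw [pairing_eq]
  obtain ⟨hu1, -⟩ := ratio_unit (G := Subgroup.centralizer ({x} : Set G)) hM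
  have h4 : omg (ψ : Subgroup.centralizer ({x} : Set G) → ℂ) (fun h => reg p ϑ h⁻¹) =
      (Nat.card (Subgroup.centralizer ({x} : Set G)) : ℂ) *
          classInner (reg p ϑ) (ψ : Subgroup.centralizer ({x} : Set G) → ℂ) /
            (ψ : Subgroup.centralizer ({x} : Set G) → ℂ) 1 := by
    unfold omg
    have h5 : ∑ h : Subgroup.centralizer ({x} : Set G), reg p ϑ h⁻¹ *
        (ψ : Subgroup.centralizer ({x} : Set G) → ℂ) h =
        (Nat.card (Subgroup.centralizer ({x} : Set G)) : ℂ) *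
          classInner (reg p ϑ) (ψ : Subgroup.centralizer ({x} : Set G) → ℂ) := by
      unfold classInner
      rw [mul_inv_cancel_left₀ (by exact_mod_cast Nat.card_pos.ne')]
      rw [← Equiv.sum_comp (Equiv.inv _) (fun h => reg p ϑ h *
        conj ((ψ : Subgroup.centralizer ({x} : Set G) → ℂ) h))]
      apply Finset.sum_congr rfl
      intro h _
      rw [Equiv.inv_apply, char_inv_eq_conj (irr_isCharacter ψ.2), Complex.conj_conj]
    rw [h5]
  have h5 : MemLocalIdeal M (omg (ψ : Subgroup.centralizer ({x} : Set G) → ℂ)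
      ((fun h : Subgroup.centralizer ({x} : Set G) => reg p (χ : G → ℂ) (h : G)⁻¹) -
        (fun h => reg p ϑ h⁻¹))) := by
    apply omg_ideal hp
    · apply classFun_sub
      · have := res_classFun (Subgroup.centralizer ({x} : Set G))
          (regInv_classFun (p := p) (irr_classFun χ.2))
        exact this
      · exact regInv_classFun hϑc
    · intro h
      rw [Pi.sub_apply]
      by_cases hh : p ∣ orderOf h
      · rw [reg_not (f := (χ : G → ℂ)) (by rw [orderOf_inv, Subgroup.orderOf_coe]; exact hh),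
          reg_not (f := ϑ) (by rw [orderOf_inv]; exact hh), sub_zero]
        exact ideal_zero hp
      · rw [reg_of (f := (χ : G → ℂ)) (by rw [orderOf_inv, Subgroup.orderOf_coe]; exact hh),
          reg_of (f := ϑ) (by rw [orderOf_inv]; exact hh)]
        apply ideal_sub_comm
        have hc : Commute x (h : G)⁻¹ := by
          have := Subgroup.mem_centralizer_singleton_iff.mp h.2
          have h6 : Commute (h : G) x := this
          exact h6.symm.inv_right
        exact char_congr hM (irr_isCharacter χ.2) hc hx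
  rw [omg_sub] at h5
  have h6 := ideal_mul_left hp hu1 h5
  have h7 : (((p ^ (Nat.card (Subgroup.centralizer ({x} : Set G))).factorization p : ℕ) : ℂ) /
      (Nat.card (Subgroup.centralizer ({x} : Set G)) : ℂ)) *
      omg (ψ : Subgroup.centralizer ({x} : Set G) → ℂ) (fun h => reg p ϑ h⁻¹) =
      ((p ^ (Nat.card (Subgroup.centralizer ({x} : Set G))).factorization p : ℕ) : ℂ) *
      classInner (reg p ϑ) (ψ : Subgroup.centralizer ({x} : Set G) → ℂ) /
        (ψ : Subgroup.centralizer ({x} : Set G) → ℂ) 1 := by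
    rw [h4]
    have : (Nat.card (Subgroup.centralizer ({x} : Set G)) : ℂ) ≠ 0 := by exact_mod_cast Nat.card_pos.ne'
    field_simp
  rw [mul_sub, h7] at h6
  have h8 := ideal_add hp h6 hcon
  rwa [sub_add_cancel] at h8

/-- the pairing vector modulo the ideal -/
noncomputable def EE (p : ℕ) (b : Set (IrrCharacter (Subgroup.centralizer ({x} : Set G)))) (χ : IrrCharacter G) : ℂ :=
  ∑ η : IrrCharacter (Subgroup.centralizer ({x} : Set G)), ind b η * wc χ η * vv p b η

theorem EE_mem {n : ℕ} (hn : x ^ (p ^ (n + 1)) = 1) (χ : IrrCharacter G) : EE p b χ ∈ ZR p n := by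
  unfold EE
  apply sum_mem; intro η _
  exact mul_mem (mul_mem (ind_mem η) (wc_mem hn χ η)) (nat_mem _)

theorem con_EE (hM : IsPModular p M) (hb : IsPBlock M b) {n : ℕ} (hn : x ^ (p ^ (n + 1)) = 1) {c0 : ℂ}
    (h : ∀ η ∈ b, ∀ η' ∈ b, MemLocalIdeal M ((mb p b η η' : ℂ) - c0 * vv p b η * vv p b η'))
    (χ ψ : IrrCharacter G) :
    MemLocalIdeal M (con p b χ ψ - c0 * EE p b χ * conj (EE p b ψ)) := by
  have hp := isPrime_of_modular hM
  have h1 : con p b χ ψ - c0 * EE p b χ * conj (EE p b ψ) =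
      ∑ η : IrrCharacter (Subgroup.centralizer ({x} : Set G)),
      ∑ η' : IrrCharacter (Subgroup.centralizer ({x} : Set G)),
        ((ind b η * wc χ η) * conj (ind b η' * wc ψ η')) * ((mb p b η η' : ℂ) - c0 * vv p b η * vv p b η') := by
    rw [con_expand]
    simp only [term_eq hM hb]
    unfold EE
    rw [map_sum, mul_assoc, Finset.sum_mul_sum, Finset.mul_sum, ← Finset.sum_sub_distrib]
    apply Finset.sum_congr rfl
    intro η _
    rw [Finset.mul_sum, ← Finset.sum_sub_distrib]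
    apply Finset.sum_congr rfl
    intro η' _
    simp only [map_mul, map_natCast]
    ring
  rw [h1]
  apply ideal_sum hp; intro η _
  apply ideal_sum hp; intro η' _
  by_cases hη : η ∈ b
  · by_cases hη' : η' ∈ b
    · apply ideal_mul_left hp _ (h η hη η' hη')
      exact ring_mem hp (mul_mem (mul_mem (ind_mem (p := p) (n := n) η) (wc_mem hn χ η))
        (conj_mem (mul_mem (ind_mem η') (wc_mem hn ψ η'))))
    · rw [ind_not hη', zero_mul, map_zero, mul_zero, zero_mul]; exact ideal_zero hp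
  · rw [ind_not hη, zero_mul, zero_mul, zero_mul]; exact ideal_zero hp

theorem EE_unit (hM : IsPModular p M) {B : Set (IrrCharacter G)} {χ : IrrCharacter G}
    (hχ : χ ∈ B) (h0 : blockHeight p B (χ : G → ℂ) = 0) (hx : ∃ k : ℕ, orderOf x = p ^ k)
    (hb : IsInducedBlock M (Subgroup.centralizer ({x} : Set G)) b B) {n : ℕ} (hn : x ^ (p ^ (n + 1)) = 1) :
    ¬ MemLocalIdeal M (EE p b χ) := by
  have hp := isPrime_of_modular hM
  intro hcon
  obtain ⟨c0, hc0, -, hr⟩ := rank_one hM hb.1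
  obtain ⟨ξ, hξ, hξ0⟩ := exists_height_zero hM hb.1
  have hξ0' : blockHeight p b (ξ : Subgroup.centralizer ({x} : Set G) → ℂ) = 0 :=
    (height_zero_iff hM hb.1 hξ).mpr hξ0
  have hv : ¬ p ∣ vv p b ξ := vv_unit hM hb.1 hξ hξ0'
  have hinv : MemLocalRing M ((vv p b ξ : ℂ)⁻¹) := ring_inv_nat hM hv
  have hv0 : (vv p b ξ : ℂ) ≠ 0 := by exact_mod_cast (vv_pos hM hb.1 hξ).ne'
  apply bp hM hχ h0 hx hb hξ
  have h1 : ((p ^ (Nat.card (Subgroup.centralizer ({x} : Set G))).factorization p : ℕ) : ℂ) *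
      classInner (th p b χ) (ξ : Subgroup.centralizer ({x} : Set G) → ℂ) /
        (charDegree (ξ : Subgroup.centralizer ({x} : Set G) → ℂ) : ℂ) =
      ∑ η : IrrCharacter (Subgroup.centralizer ({x} : Set G)), ind b η * wc χ η *
        ((mb p b η ξ : ℂ) / (vv p b ξ : ℂ)) := by
    rw [th_expand χ, ci_sum_l, Finset.mul_sum, Finset.sum_div]
    apply Finset.sum_congr rfl
    intro η _
    by_cases hη : η ∈ b
    · rw [ci_smul_l, mb_div hM hb.1 hη hξ, ← cc_spec]
      ring
    · rw [ind_not hη, zero_mul, zero_smul, ci_zero_l, mul_zero, zero_div, zero_mul]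
  rw [h1]
  have h2 : ∑ η : IrrCharacter (Subgroup.centralizer ({x} : Set G)), ind b η * wc χ η *
        ((mb p b η ξ : ℂ) / (vv p b ξ : ℂ)) = c0 * EE p b χ +
      ∑ η : IrrCharacter (Subgroup.centralizer ({x} : Set G)), ind b η * wc χ η *
        (((mb p b η ξ : ℂ) - c0 * vv p b η * vv p b ξ) * (vv p b ξ : ℂ)⁻¹) := by
    unfold EE
    rw [Finset.mul_sum, ← Finset.sum_add_distrib]
    apply Finset.sum_congr rfl
    intro η _
    field_simp
    ring
  rw [h2]
  apply ideal_add hp (ideal_mul_left hp hc0 hcon)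
  apply ideal_sum hp; intro η _
  by_cases hη : η ∈ b
  · apply ideal_mul_left hp
    · exact ring_mem hp (mul_mem (ind_mem (p := p) (n := n) η) (wc_mem hn χ η))
    · exact ideal_mul_right hp (hr η hη ξ hξ) hinv
  · rw [ind_not hη, zero_mul, zero_mul]; exact ideal_zero hp

/-- (B5) contributions between characters of height zero are units -/
theorem con_unit (hM : IsPModular p M) {B : Set (IrrCharacter G)} {χ ψ : IrrCharacter G}
    (hχ : χ ∈ B) (h0 : blockHeight p B (χ : G → ℂ) = 0) (hψ : ψ ∈ B) (h0' : blockHeight p B (ψ : G → ℂ) = 0)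
    (hx : ∃ k : ℕ, orderOf x = p ^ k)
    (hb : IsInducedBlock M (Subgroup.centralizer ({x} : Set G)) b B) {n : ℕ} (hn : x ^ (p ^ (n + 1)) = 1) :
    ¬ MemLocalIdeal M (con p b χ ψ) := by
  have hp := isPrime_of_modular hM
  obtain ⟨c0, hc0, hc0', hr⟩ := rank_one hM hb.1
  intro hcon
  have h1 := con_EE hM hb.1 hn hr χ ψ
  have h2 := ideal_sub hp hcon h1
  rw [sub_sub_cancel] at h2
  have hR1 : MemLocalRing M (EE p b χ) := ring_mem hp (EE_mem hn χ)
  have hR2 : MemLocalRing M (conj (EE p b ψ)) := ring_mem hp (conj_mem (EE_mem hn ψ))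
  rcases ideal_prime hp (ring_mul hp hc0 hR1) hR2 h2 with h3 | h3
  · rcases ideal_prime hp hc0 hR1 h3 with h4 | h4
    · exact hc0' h4
    · exact EE_unit hM hχ h0 hx hb hn h4
  · have h4 := ideal_add hp (conj_congr hM (EE_mem (b := b) (p := p) hn ψ)) h3
    rw [sub_add_cancel] at h4
    exact EE_unit hM hψ h0' hx hb hn h4

/-! ### the class function on `G` -/

/-- `Θ_χ = Σ_φ [θ_χ, θ_φ] φ` -/
noncomputable def Th (p : ℕ) (b : Set (IrrCharacter (Subgroup.centralizer ({x} : Set G)))) (χ : IrrCharacter G) :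
    G → ℂ := ∑ φ : IrrCharacter G, classInner (th p b χ) (th p b φ) • (φ : G → ℂ)

theorem Th_classFun (χ : IrrCharacter G) : IsClassFunction G (Th p b χ) :=
  classFun_sum _ fun φ _ => classFun_smul _ (irr_classFun φ.2)

theorem Th_inner (χ ψ : IrrCharacter G) : classInner (Th p b χ) (ψ : G → ℂ) =
    classInner (th p b χ) (th p b ψ) := by
  unfold Th
  rw [inner_comb]

theorem th_ring (hM : IsPModular p M) {n : ℕ} (hn : x ^ (p ^ (n + 1)) = 1) (χ : IrrCharacter G)
    (c : Subgroup.centralizer ({x} : Set G)) : MemLocalRing M (th p b χ c) := by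
  have hp := isPrime_of_modular hM
  rw [th_expand, Finset.sum_apply]
  apply ring_sum hp; intro η _
  rw [Pi.smul_apply, smul_eq_mul]
  apply ring_mul hp
  · exact ring_mem hp (mul_mem (ind_mem (p := p) (n := n) η) (wc_mem hn χ η))
  · by_cases hc : p ∣ orderOf c
    · rw [reg_not hc]; exact ring_zero hp
    · rw [reg_of hc]
      exact ringOfInt hp (CfsgLib.CharBasic.char_isIntegral (irr_isCharacter η.2) c)

theorem Th_ring (hM : IsPModular p M) (hx : ∃ k : ℕ, orderOf x = p ^ k) (hb : IsPBlock M b)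
    {n : ℕ} (hn : x ^ (p ^ (n + 1)) = 1) (χ : IrrCharacter G) (g : G) : MemLocalRing M (Th p b χ g) := by
  classical
  have hp := isPrime_of_modular hM
  have hCne : (Nat.card (Subgroup.centralizer ({x} : Set G)) : ℂ) ≠ 0 := by exact_mod_cast Nat.card_pos.ne'
  -- the value
  have h1 : Th p b χ g = (Nat.card (Subgroup.centralizer ({x} : Set G)) : ℂ)⁻¹ *
      ∑ c : Subgroup.centralizer ({x} : Set G), th p b χ c *
        ∑ φ : IrrCharacter G, (φ : G → ℂ) g * conj ((φ : G → ℂ) (x * (c : G))) := by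
    unfold Th
    rw [Finset.sum_apply]
    have h2 : ∀ φ : IrrCharacter G, classInner (th p b χ) (th p b φ) =
        (Nat.card (Subgroup.centralizer ({x} : Set G)) : ℂ)⁻¹ *
          ∑ c : Subgroup.centralizer ({x} : Set G), th p b χ c * conj ((φ : G → ℂ) (x * (c : G))) := by
      intro φ
      rw [← ci_conj, inner_th hM hb φ (th_inV hM hb χ), ci_conj]
      rfl
    simp only [Pi.smul_apply, smul_eq_mul, h2, Finset.mul_sum, Finset.sum_mul]
    rw [Finset.sum_comm]
    apply Finset.sum_congr rfl; intro c _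
    apply Finset.sum_congr rfl; intro φ _
    ring
  rw [h1]
  simp only [column_orthogonality]
  by_cases hg : ∃ c : Subgroup.centralizer ({x} : Set G), ¬ p ∣ orderOf c ∧ IsConj g (x * (c : G))
  · obtain ⟨c0, hc0, hgc⟩ := hg
    have h2 : ∀ c : Subgroup.centralizer ({x} : Set G), th p b χ c *
        (if IsConj g (x * (c : G)) then (Nat.card (Subgroup.centralizer ({g} : Set G)) : ℂ) else 0) =
        if IsConj c0 c then th p b χ c0 * (Nat.card (Subgroup.centralizer ({c0} : Set (Subgroup.centralizer ({x} : Set G)))) : ℂ)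
          else 0 := by
      intro c
      by_cases hc : p ∣ orderOf c
      · have h3 : th p b χ c = 0 := by unfold th; rw [reg_not hc]
        rw [h3, zero_mul, if_neg]
        intro h
        obtain ⟨t, ht⟩ := isConj_iff.mp h
        rw [← ht, orderOf_conj] at hc
        exact hc0 hc
      · by_cases h : IsConj c0 c
        · have h3 : IsConj (x * (c0 : G)) (x * (c : G)) := (isConj_mul_iff x hx hc0 hc).mpr h
          rw [if_pos h, if_pos (hgc.trans h3)]
          obtain ⟨t, ht⟩ := isConj_iff.mp h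
          have h4 : th p b χ c = th p b χ c0 := by rw [← ht]; exact (th_inV hM hb χ).1 c0 t
          rw [h4]
          congr 1
          rw [← centralizer_mul_card x hx hc0]
          have e1 := card_class_mul_card_centralizer g
          have e2 := card_class_mul_card_centralizer (x * (c0 : G))
          have e3 : {y | IsConj g y} = {y | IsConj (x * (c0 : G)) y} := by
            ext y
            exact ⟨fun hy => hgc.symm.trans hy, fun hy => hgc.trans hy⟩
          have e4 : Nat.card {y // IsConj g y} = Nat.card {y // IsConj (x * (c0 : G)) y} :=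
            Nat.card_congr (Equiv.setCongr e3)
          rw [e4, ← e2] at e1
          have e5 : 0 < Nat.card {y // IsConj (x * (c0 : G)) y} := by
            haveI : Nonempty {y // IsConj (x * (c0 : G)) y} := ⟨⟨_, IsConj.refl _⟩⟩
            exact Nat.card_pos
          exact_mod_cast Nat.eq_of_mul_eq_mul_left e5 e1
        · rw [if_neg h, if_neg, mul_zero]
          intro h3
          exact h ((isConj_mul_iff x hx hc0 hc).mp (hgc.symm.trans h3))
    simp only [h2]
    rw [← Finset.sum_filter, Finset.sum_const, nsmul_eq_mul]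
    have e1 := card_class_mul_card_centralizer c0
    have e2 : ((Finset.univ.filter (fun c => IsConj c0 c)).card : ℂ) =
        (Nat.card {y : Subgroup.centralizer ({x} : Set G) // IsConj c0 y} : ℂ) := by
      rw [Nat.card_eq_fintype_card, Fintype.card_subtype]
    rw [e2]
    have e3 : (Nat.card {y : Subgroup.centralizer ({x} : Set G) // IsConj c0 y} : ℂ) *
        (Nat.card (Subgroup.centralizer ({c0} : Set (Subgroup.centralizer ({x} : Set G)))) : ℂ) =
        (Nat.card (Subgroup.centralizer ({x} : Set G)) : ℂ) := by exact_mod_cast e1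
    have e4 : (Nat.card (Subgroup.centralizer ({x} : Set G)) : ℂ)⁻¹ *
        ((Nat.card {y : Subgroup.centralizer ({x} : Set G) // IsConj c0 y} : ℂ) *
          (th p b χ c0 * (Nat.card (Subgroup.centralizer ({c0} : Set (Subgroup.centralizer ({x} : Set G)))) : ℂ))) =
        th p b χ c0 := by
      rw [mul_left_comm _ (th p b χ c0), e3, mul_comm (th p b χ c0), ← mul_assoc, inv_mul_cancel₀ hCne, one_mul]
    rw [e4]
    exact th_ring hM hn χ c0
  · push Not at hg
    rw [Finset.sum_eq_zero, mul_zero]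
    · exact ring_zero hp
    · intro c _
      by_cases hc : p ∣ orderOf c
      · have h3 : th p b χ c = 0 := by unfold th; rw [reg_not hc]
        rw [h3, zero_mul]
      · rw [if_neg (hg c hc), mul_zero]

/-- the normalised pairing on `G` -/
noncomputable def rho (p : ℕ) (b : Set (IrrCharacter (Subgroup.centralizer ({x} : Set G)))) (χ ψ : IrrCharacter G) : ℂ :=
  ((p ^ (Nat.card G).factorization p : ℕ) : ℂ) * classInner (th p b χ) (th p b ψ) / (charDegree (ψ : G → ℂ) : ℂ)

theorem rho_eq (χ ψ : IrrCharacter G) : rho p b χ ψ =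
    ((p ^ (Nat.card G).factorization p : ℕ) : ℂ) / (Nat.card G : ℂ) *
      omg (ψ : G → ℂ) (fun g => Th p b χ g⁻¹) := by
  have hGne : (Nat.card G : ℂ) ≠ 0 := by exact_mod_cast Nat.card_pos.ne'
  unfold rho
  rw [← Th_inner, ← irr_one_eq_charDegree ψ.2]
  unfold omg
  have h5 : ∑ g : G, Th p b χ g⁻¹ * (ψ : G → ℂ) g =
      (Nat.card G : ℂ) * classInner (Th p b χ) (ψ : G → ℂ) := by
    unfold classInner
    rw [mul_inv_cancel_left₀ hGne]
    rw [← Equiv.sum_comp (Equiv.inv _) (fun h => Th p b χ h * conj ((ψ : G → ℂ) h))]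
    apply Finset.sum_congr rfl
    intro h _
    rw [Equiv.inv_apply, char_inv_eq_conj (irr_isCharacter ψ.2), Complex.conj_conj]
  rw [h5]
  field_simp

theorem inv_classFun {f : G → ℂ} (hf : IsClassFunction G f) : IsClassFunction G (fun g => f g⁻¹) := by
  intro g h
  change f (h * g * h⁻¹)⁻¹ = f g⁻¹
  rw [show (h * g * h⁻¹)⁻¹ = h * g⁻¹ * h⁻¹ from by group]
  exact hf g⁻¹ h

theorem rho_ring (hM : IsPModular p M) (hx : ∃ k : ℕ, orderOf x = p ^ k) (hb : IsPBlock M b)
    {n : ℕ} (hn : x ^ (p ^ (n + 1)) = 1) (χ ψ : IrrCharacter G) : MemLocalRing M (rho p b χ ψ) := by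
  have hp := isPrime_of_modular hM
  rw [rho_eq]
  exact ring_mul hp (ratio_unit hM).1 (omg_ring hp ψ (inv_classFun (Th_classFun χ))
    (fun g => Th_ring hM hx hb hn χ g⁻¹))

theorem rho_congr (hM : IsPModular p M) (hx : ∃ k : ℕ, orderOf x = p ^ k) (hb : IsPBlock M b)
    {n : ℕ} (hn : x ^ (p ^ (n + 1)) = 1) (χ : IrrCharacter G) {B : Set (IrrCharacter G)} (hB : IsPBlock M B)
    {ψ ψ' : IrrCharacter G} (hψ : ψ ∈ B) (hψ' : ψ' ∈ B) :
    MemLocalIdeal M (rho p b χ ψ - rho p b χ ψ') := by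
  have hp := isPrime_of_modular hM
  rw [rho_eq, rho_eq, ← mul_sub]
  exact ideal_mul_left hp (ratio_unit hM).1 (omg_sameBlock hp (sameBlock_of_mem hp hB hψ hψ')
    (inv_classFun (Th_classFun χ)) (fun g => Th_ring hM hx hb hn χ g⁻¹))

theorem con_rho (hM : IsPModular p M) {B : Set (IrrCharacter G)} (hB : IsPBlock M B)
    (hd : blockDefect p b = blockDefect p B) (χ : IrrCharacter G) {ψ : IrrCharacter G} (hψ : ψ ∈ B) :
    ∃ u : ℕ, ¬ p ∣ u ∧ con p b χ ψ / (p : ℂ) ^ blockHeight p B (ψ : G → ℂ) = (u : ℂ) * rho p b χ ψ := by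
  have hpp : p.Prime := Fact.out
  have hp0 : (p : ℂ) ≠ 0 := by exact_mod_cast hpp.pos.ne'
  refine ⟨charDegree (ψ : G → ℂ) / p ^ (charDegree (ψ : G → ℂ)).factorization p,
    Nat.not_dvd_ordCompl hpp (irr_charDegree_pos ψ.2).ne', ?_⟩
  have h1 := Nat.ordProj_mul_ordCompl_eq_self (charDegree (ψ : G → ℂ)) p
  set u := charDegree (ψ : G → ℂ) / p ^ (charDegree (ψ : G → ℂ)).factorization p with hu
  have hu0 : (u : ℂ) ≠ 0 := by
    intro h
    have h' : u = 0 := by exact_mod_cast h
    rw [h', mul_zero] at h1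
    exact (irr_charDegree_pos ψ.2).ne' h1.symm
  have h2 := degree_eq hM hB hψ
  have h3 := defect_le p B
  unfold con rho
  rw [hd]
  have h4 : (charDegree (ψ : G → ℂ) : ℂ) =
      (p : ℂ) ^ ((Nat.card G).factorization p - blockDefect p B) * (p : ℂ) ^ blockHeight p B (ψ : G → ℂ) * u := by
    rw [← h1]
    push_cast
    rw [← pow_add]
    congr 2
    omega
  have h5 : ((p ^ (Nat.card G).factorization p : ℕ) : ℂ) =
      (p : ℂ) ^ ((Nat.card G).factorization p - blockDefect p B) * (p : ℂ) ^ blockDefect p B := by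
    push_cast
    rw [← pow_add]; congr 1; omega
  rw [h4, h5]
  push_cast
  have h6 : ((p : ℂ) ^ ((Nat.card G).factorization p - blockDefect p B)) ≠ 0 := pow_ne_zero _ hp0
  have h7 : ((p : ℂ) ^ blockHeight p B (ψ : G → ℂ)) ≠ 0 := pow_ne_zero _ hp0
  field_simp

/-- (B6a) -/
theorem major_ring (hM : IsPModular p M) (hx : ∃ k : ℕ, orderOf x = p ^ k) (hb : IsPBlock M b)
    {n : ℕ} (hn : x ^ (p ^ (n + 1)) = 1) {B : Set (IrrCharacter G)} (hB : IsPBlock M B)
    (hd : blockDefect p b = blockDefect p B) (χ : IrrCharacter G) {ψ : IrrCharacter G} (hψ : ψ ∈ B) :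
    MemLocalRing M (con p b χ ψ / (p : ℂ) ^ blockHeight p B (ψ : G → ℂ)) := by
  have hp := isPrime_of_modular hM
  obtain ⟨u, hu, h⟩ := con_rho hM hB hd χ hψ
  rw [h]
  exact ring_mul hp (ring_nat hp u) (rho_ring hM hx hb hn χ ψ)

/-- (B6b) -/
theorem major_unit (hM : IsPModular p M) (hx : ∃ k : ℕ, orderOf x = p ^ k)
    {n : ℕ} (hn : x ^ (p ^ (n + 1)) = 1) {B : Set (IrrCharacter G)}
    (hb : IsInducedBlock M (Subgroup.centralizer ({x} : Set G)) b B)
    (hd : blockDefect p b = blockDefect p B) {χ : IrrCharacter G} (hχ : χ ∈ B)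
    (h0 : blockHeight p B (χ : G → ℂ) = 0) {ψ : IrrCharacter G} (hψ : ψ ∈ B) :
    ¬ MemLocalIdeal M (con p b χ ψ / (p : ℂ) ^ blockHeight p B (ψ : G → ℂ)) := by
  have hp := isPrime_of_modular hM
  obtain ⟨u, hu, h⟩ := con_rho hM hb.2.1 hd χ hψ
  obtain ⟨u', hu', h'⟩ := con_rho hM hb.2.1 hd χ hχ
  rw [h0, pow_zero, div_one] at h'
  rw [h]
  intro hcon
  have h1 : MemLocalIdeal M (rho p b χ ψ) := by
    rcases ideal_prime hp (ring_nat hp u) (rho_ring hM hx hb.1 hn χ ψ) hcon with h2 | h2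
    · exact absurd ((ideal_nat_iff hM).mp h2) hu
    · exact h2
  have h2 : MemLocalIdeal M (rho p b χ χ) := by
    have h3 := ideal_add hp (rho_congr hM hx hb.1 hn χ hb.2.1 hχ hψ) h1
    rwa [sub_add_cancel] at h3
  apply con_unit hM hχ h0 hχ h0 hx hb hn
  rw [h']
  exact ideal_mul_left hp (ring_nat hp u') h2

theorem major_ne (hM : IsPModular p M) (hx : ∃ k : ℕ, orderOf x = p ^ k)
    {B : Set (IrrCharacter G)}
    (hb : IsInducedBlock M (Subgroup.centralizer ({x} : Set G)) b B)
    (hd : blockDefect p b = blockDefect p B) {χ : IrrCharacter G} (hχ : χ ∈ B)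
    (h0 : blockHeight p B (χ : G → ℂ) = 0) {ψ : IrrCharacter G} (hψ : ψ ∈ B)
    {n : ℕ} (hn : x ^ (p ^ (n + 1)) = 1) :
    con p b χ ψ ≠ 0 := by
  have hp := isPrime_of_modular hM
  intro h
  apply major_unit hM hx hn hb hd hχ h0 hψ
  rw [h, zero_div]; exact ideal_zero hp

/-- (B6c) -/
theorem major_pos (hM : IsPModular p M) (hx : ∃ k : ℕ, orderOf x = p ^ k)
    {n : ℕ} (hn : x ^ (p ^ (n + 1)) = 1) {B : Set (IrrCharacter G)}
    (hb : IsInducedBlock M (Subgroup.centralizer ({x} : Set G)) b B)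
    (hd : blockDefect p b = blockDefect p B) {χ : IrrCharacter G} (hχ : χ ∈ B)
    (h0 : blockHeight p B (χ : G → ℂ) ≠ 0) {ψ : IrrCharacter G} (hψ : ψ ∈ B) :
    MemLocalIdeal M (con p b χ ψ / (p : ℂ) ^ blockHeight p B (ψ : G → ℂ)) := by
  have hp := isPrime_of_modular hM
  have hp0 : (p : ℂ) ≠ 0 := by exact_mod_cast (Fact.out : p.Prime).pos.ne'
  obtain ⟨ψ₀, hψ₀, h00⟩ := exists_height_zero hM hb.2.1
  have h0' : blockHeight p B (ψ₀ : G → ℂ) = 0 := (height_zero_iff hM hb.2.1 hψ₀).mpr h00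
  -- `con ψ₀ χ` is in the ideal
  have h1 : MemLocalIdeal M (con p b ψ₀ χ) := by
    have h2 := major_ring hM hx hb.1 hn hb.2.1 hd ψ₀ hχ
    have h3 : con p b ψ₀ χ = (p : ℂ) ^ blockHeight p B (χ : G → ℂ) *
        (con p b ψ₀ χ / (p : ℂ) ^ blockHeight p B (χ : G → ℂ)) := by
      field_simp
    rw [h3]
    exact ideal_mul_right hp (ideal_pow hp (ideal_p hM) h0) h2
  have h2 : MemLocalIdeal M (con p b χ ψ₀) := by
    rw [← con_conj]
    have h3 := ideal_sub hp h1 (conj_congr hM (con_mem hM hb.1 hn ψ₀ χ))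
    rwa [sub_sub_cancel] at h3
  obtain ⟨u', hu', h'⟩ := con_rho hM hb.2.1 hd χ hψ₀
  rw [h0', pow_zero, div_one] at h'
  rw [h'] at h2
  have h3 : MemLocalIdeal M (rho p b χ ψ₀) := by
    rcases ideal_prime hp (ring_nat hp u') (rho_ring hM hx hb.1 hn χ ψ₀) h2 with h2 | h2
    · exact absurd ((ideal_nat_iff hM).mp h2) hu'
    · exact h2
  have h4 : MemLocalIdeal M (rho p b χ ψ) := by
    have h3 := ideal_add hp (rho_congr hM hx hb.1 hn χ hb.2.1 hψ hψ₀) h3
    rwa [sub_add_cancel] at h3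
  obtain ⟨u, hu, h⟩ := con_rho hM hb.2.1 hd χ hψ
  rw [h]
  exact ideal_mul_left hp (ring_nat hp u) h4

theorem exists_n (hx : ∃ k : ℕ, orderOf x = p ^ k) : ∃ n : ℕ, x ^ (p ^ (n + 1)) = 1 := by
  obtain ⟨k, hk⟩ := hx
  refine ⟨k, ?_⟩
  rw [pow_succ, pow_mul, ← hk, pow_orderOf_eq_one, one_pow]

/-! ### averages -/

/-- the averaged diagonal contribution -/
noncomputable def aa (p n : ℕ) [Fact p.Prime] (b : Set (IrrCharacter (Subgroup.centralizer ({x} : Set G))))
    (χ : IrrCharacter G) : ℝ :=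
  ((p ^ blockDefect p b : ℕ) : ℝ)⁻¹ * ∑ ψ : IrrCharacter G, avN p n (con p b χ ψ)

theorem sum_avN (p n : ℕ) [Fact p.Prime] (b : Set (IrrCharacter (Subgroup.centralizer ({x} : Set G))))
    (χ : IrrCharacter G) : ∑ ψ : IrrCharacter G, avN p n (con p b χ ψ) =
      ((p ^ blockDefect p b : ℕ) : ℝ) * aa p n b χ := by
  unfold aa
  rw [← mul_assoc, mul_inv_cancel₀, one_mul]
  exact_mod_cast (pow_pos (Fact.out : p.Prime).pos _).ne'

theorem aa_nonneg (p n : ℕ) [Fact p.Prime] (b : Set (IrrCharacter (Subgroup.centralizer ({x} : Set G))))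
    (χ : IrrCharacter G) : 0 ≤ aa p n b χ := by
  unfold aa
  exact mul_nonneg (by positivity) (Finset.sum_nonneg fun ψ _ => avN_nonneg _)

theorem av_con (hM : IsPModular p M) (hx : ∃ k : ℕ, orderOf x = p ^ k) (hb : IsPBlock M b)
    {n : ℕ} (hn : x ^ (p ^ (n + 1)) = 1) (χ : IrrCharacter G) :
    av p n (con p b χ χ) = (aa p n b χ : ℂ) := by
  have h0 : ((p ^ blockDefect p b : ℕ) : ℂ) ≠ 0 := by
    exact_mod_cast (pow_pos (Fact.out : p.Prime).pos _).ne'
  apply mul_left_cancel₀ h0
  rw [← av_natmul, ← con_mul hM hx hb χ χ, av_sum]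
  have h1 : ∀ ψ : IrrCharacter G, av p n (con p b χ ψ * con p b ψ χ) = (avN p n (con p b χ ψ) : ℂ) := by
    intro ψ
    rw [← con_conj χ ψ, av_norm (con_mem hM hb hn χ ψ)]
  simp only [h1]
  have h2 := sum_avN p n b χ
  have h3 : ((∑ ψ : IrrCharacter G, avN p n (con p b χ ψ) : ℝ) : ℂ) =
      ((((p ^ blockDefect p b : ℕ) : ℝ) * aa p n b χ : ℝ) : ℂ) := by rw [h2]
  push_cast at h3 ⊢
  exact h3

theorem sum_aa (hM : IsPModular p M) (hx : ∃ k : ℕ, orderOf x = p ^ k) (hb : IsPBlock M b)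
    {n : ℕ} (hn : x ^ (p ^ (n + 1)) = 1) :
    ∑ χ : IrrCharacter G, aa p n b χ = ((p ^ blockDefect p b : ℕ) : ℝ) * blockRank p b := by
  have h1 := congrArg (av p n) (con_trace hM hx hb)
  rw [av_sum, ← Nat.cast_mul, av_nat] at h1
  simp only [av_con hM hx hb hn] at h1
  exact_mod_cast h1

theorem aa_pos (hM : IsPModular p M) (hb : IsPBlock M b) {n : ℕ} (hn : x ^ (p ^ (n + 1)) = 1)
    {χ ψ : IrrCharacter G} (h : con p b χ ψ ≠ 0) : 0 < aa p n b χ := by
  unfold aa
  apply mul_pos
  · apply inv_pos.mpr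
    exact_mod_cast pow_pos (Fact.out : p.Prime).pos _
  · apply Finset.sum_pos'
    · intro φ _; exact avN_nonneg _
    · exact ⟨ψ, Finset.mem_univ _, lt_of_lt_of_le zero_lt_one (one_le_avN (con_mem hM hb hn χ ψ) h)⟩

theorem card_le_sum (S : Set (IrrCharacter G)) (f : IrrCharacter G → ℝ) (hf : ∀ ψ, 0 ≤ f ψ)
    (h : ∀ ψ ∈ S, 1 ≤ f ψ) : (Nat.card S : ℝ) ≤ ∑ ψ : IrrCharacter G, f ψ := by
  classical
  rw [Nat.card_eq_fintype_card, ← Set.toFinset_card, Finset.card_eq_sum_ones, Nat.cast_sum]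
  calc ∑ i ∈ S.toFinset, ((1 : ℕ) : ℝ) ≤ ∑ ψ ∈ S.toFinset, f ψ := by
        apply Finset.sum_le_sum
        intro i hi
        rw [Nat.cast_one]
        exact h i (Set.mem_toFinset.mp hi)
    _ ≤ ∑ ψ : IrrCharacter G, f ψ :=
        Finset.sum_le_sum_of_subset_of_nonneg (Finset.subset_univ _) fun i _ _ => hf i

theorem card_le_aa (hM : IsPModular p M) (hb : IsPBlock M b) {n : ℕ} (hn : x ^ (p ^ (n + 1)) = 1)
    (S : Set (IrrCharacter G)) (χ : IrrCharacter G) (h : ∀ ψ ∈ S, con p b χ ψ ≠ 0) :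
    (Nat.card S : ℝ) ≤ ((p ^ blockDefect p b : ℕ) : ℝ) * aa p n b χ := by
  rw [← sum_avN]
  exact card_le_sum S _ (fun _ => avN_nonneg _) fun ψ hψ => one_le_avN (con_mem hM hb hn χ ψ) (h ψ hψ)

/-- `p = 2`: the averaged diagonal contribution is an odd integer for height zero -/
theorem aa_two {M : Ideal AlgInt} (hM : IsPModular 2 M) (hx : ∃ k : ℕ, orderOf x = 2 ^ k)
    (hb : IsPBlock M b) {n : ℕ} (hn : x ^ (2 ^ (n + 1)) = 1) (χ : IrrCharacter G) :
    ∃ A : ℤ, aa 2 n b χ = A ∧ 0 ≤ A ∧ (MemLocalIdeal M (con 2 b χ χ) ↔ (2 : ℤ) ∣ A) := by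
  have hp := isPrime_of_modular hM
  obtain ⟨A, hA, hA2⟩ := av_two_real (n := n) hM (con_mem hM hb hn χ χ) (con_conj χ χ)
  rw [av_con hM hx hb hn] at hA
  have hA' : aa 2 n b χ = A := by exact_mod_cast hA
  refine ⟨A, hA', ?_, ?_⟩
  · have := aa_nonneg 2 n b χ
    rw [hA'] at this
    exact_mod_cast this
  · have h0 : (2 : ℤ) ∣ A ↔ MemLocalIdeal M (A : ℂ) := by
      rw [ideal_int_iff hM]; norm_num
    rw [h0]
    constructor
    · intro h
      have := ideal_sub hp h hA2
      rwa [sub_sub_cancel] at this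
    · intro h
      have := ideal_add hp hA2 h
      rwa [sub_add_cancel] at this

/-- the same for the quotient by a power of `2` -/
theorem aa_two_div {M : Ideal AlgInt} (hM : IsPModular 2 M) (hx : ∃ k : ℕ, orderOf x = 2 ^ k)
    (hb : IsPBlock M b) {n : ℕ} (hn : x ^ (2 ^ (n + 1)) = 1) (χ : IrrCharacter G) {h : ℕ}
    (hd : MemLocalIdeal M (con 2 b χ χ / (2 : ℂ) ^ h)) :
    ∃ A : ℤ, aa 2 n b χ = 2 ^ (h + 1) * A := by
  have hp := isPrime_of_modular hM
  have hd' : MemLocalRing M (con 2 b χ χ / ((2 : ℕ) : ℂ) ^ h) := by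
    rw [Nat.cast_ofNat]; exact ideal_ring hd
  obtain ⟨z, hz, hzz⟩ := div_p hM (con_mem hM hb hn χ χ) hd'
  have h20 : (2 : ℂ) ^ h ≠ 0 := pow_ne_zero _ two_ne_zero
  have hreal : conj z = z := by
    have h1 := con_conj (p := 2) (b := b) χ χ
    rw [hzz, map_mul, map_pow, Nat.cast_ofNat, show conj (2 : ℂ) = 2 from Complex.conj_ofNat 2] at h1
    exact mul_left_cancel₀ h20 h1
  obtain ⟨A, hA, hA2⟩ := av_two_real (n := n) hM hz hreal
  have hzi : MemLocalIdeal M z := by
    have : con 2 b χ χ / (2 : ℂ) ^ h = z := by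
      rw [hzz, Nat.cast_ofNat]; field_simp
    rwa [this] at hd
  have h1 : MemLocalIdeal M (A : ℂ) := by
    have := ideal_sub hp hzi hA2
    rwa [sub_sub_cancel] at this
  rw [ideal_int_iff hM] at h1
  obtain ⟨B, hB⟩ := h1
  refine ⟨B, ?_⟩
  have h2 := av_con hM hx hb hn χ
  rw [hzz, ← Nat.cast_pow, av_natmul, hA, hB] at h2
  have h3 : ((aa 2 n b χ : ℝ) : ℂ) = ((2 ^ (h + 1) * B : ℝ) : ℂ) := by
    rw [← h2]; push_cast; ring
  exact_mod_cast h3

end Con

end CfsgLib.Contrib20
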