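import Cfsg.Agent.LibContrib20

set_option autoImplicit false
set_option linter.all false
set_option maxHeartbeats 1000000

/-! # Contributions of a major subsection (helper20) -/

namespace CfsgLib.Contrib20b

open CfsgLib.CharInt hiding irr_isCharacter irr_classFun irr_one_ne_zero schur_scalar
open Cfsg CfsgLib.CharInt2 CfsgLib.CharBasic CfsgLib.BlockR CfsgLib.BlockCore
  CfsgLib.BlockIdem CfsgLib.BlockIdeal CfsgLib.BlockConj CfsgLib.BlockBrauer CfsgLib.BlockInd
  CfsgLib.BlockFMT CfsgLib.BlockFMT2 CfsgLib.PLocalInd CfsgLib.BlockOrth CfsgLib.BlockDefect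
  CfsgLib.BlockReg CfsgLib.BlockReg2 CfsgLib.BlockCount CfsgLib.BlockCount2 CfsgLib.BlockQP
  CfsgLib.BlockCov2 CfsgLib.BlockCov3 CfsgLib.BlockCov4 CfsgLib.BlockLoc CfsgLib.BlockM
  CfsgLib.BlockH CfsgLib.BlockH2 CfsgLib.CharNorm CfsgLib.BlockSec CfsgLib.BlockSec2
  CfsgLib.BlockSec3 CfsgLib.Zeta20 CfsgLib.Contrib20
open scoped ComplexConjugate Pointwise

universe u

variable {M : Ideal AlgInt} {p : ℕ} [Fact p.Prime] {G : Type u} [Group G] [Fintype G]

theorem major_setup (hM : IsPModular p M) {B : Set (IrrCharacter G)} (hB : IsPBlock M B) {D : Subgroup G}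
    (hD : IsDefectGroup p M B D) {z : G} (hzD : z ∈ D) (hzc : ∀ d ∈ D, d * z = z * d)
    {b : Set (IrrCharacter (Subgroup.centralizer ({z} : Set G)))}
    (hb : IsInducedBlock M (Subgroup.centralizer ({z} : Set G)) b B)
    (hbD : IsDefectGroup p M b (D.subgroupOf (Subgroup.centralizer ({z} : Set G)))) :
    blockDefect p b = blockDefect p B ∧ ∃ k : ℕ, orderOf z = p ^ k := by
  letI : Fintype (Subgroup.centralizer ({z} : Set G)) := Fintype.ofFinite _
  have h1 := card_defectGroup hM hB hD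
  have h2 := card_defectGroup hM hb.1 hbD
  have h3 : D ≤ Subgroup.centralizer ({z} : Set G) := by
    intro d hd
    rw [Subgroup.mem_centralizer_singleton_iff]
    exact hzc d hd
  have h4 : Nat.card (D.subgroupOf (Subgroup.centralizer ({z} : Set G))) = Nat.card D :=
    Nat.card_congr (Subgroup.subgroupOfEquivOfLe h3).toEquiv
  constructor
  · rw [h4, h1] at h2
    exact (Nat.pow_right_injective (Fact.out : p.Prime).two_le h2).symm
  · have h5 : orderOf z ∣ p ^ blockDefect p B := by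
      rw [← h1]; exact Subgroup.orderOf_dvd_natCard D hzD
    obtain ⟨k, -, hk⟩ := (Nat.dvd_prime_pow (Fact.out : p.Prime)).mp h5
    exact ⟨k, hk⟩

section Con

variable {x : G} [Fintype (Subgroup.centralizer ({x} : Set G))]
variable {b : Set (IrrCharacter (Subgroup.centralizer ({x} : Set G)))}

/-- the complementary matrix -/
noncomputable def fN (p n : ℕ) [Fact p.Prime] (b : Set (IrrCharacter (Subgroup.centralizer ({x} : Set G))))
    (χ ψ : IrrCharacter G) : ℝ := by
  classical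
  exact if ψ = χ then avN p n (((p ^ blockDefect p b : ℕ) : ℂ) - con p b χ χ) else avN p n (con p b χ ψ)

theorem fN_nonneg (p n : ℕ) [Fact p.Prime] (b : Set (IrrCharacter (Subgroup.centralizer ({x} : Set G))))
    (χ ψ : IrrCharacter G) : 0 ≤ fN p n b χ ψ := by
  unfold fN
  split_ifs
  · exact avN_nonneg _
  · exact avN_nonneg _

theorem sum_fN (hM : IsPModular p M) (hx : ∃ k : ℕ, orderOf x = p ^ k) (hb : IsPBlock M b)
    {n : ℕ} (hn : x ^ (p ^ (n + 1)) = 1) (χ : IrrCharacter G) :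
    ∑ ψ : IrrCharacter G, fN p n b χ ψ =
      ((p ^ blockDefect p b : ℕ) : ℝ) * (((p ^ blockDefect p b : ℕ) : ℝ) - aa p n b χ) := by
  classical
  have h1 : avN p n (((p ^ blockDefect p b : ℕ) : ℂ) - con p b χ χ) =
      ((p ^ blockDefect p b : ℕ) : ℝ) ^ 2 - 2 * ((p ^ blockDefect p b : ℕ) : ℝ) * aa p n b χ +
        avN p n (con p b χ χ) := by
    have hc := con_mem hM hb hn χ χ
    have h2 := av_norm (sub_mem (nat_mem (p := p) (n := n) (p ^ blockDefect p b)) hc)
    have h3 := av_norm hc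
    rw [map_sub, con_conj, map_natCast] at h2
    rw [con_conj] at h3
    have h4 : (((p ^ blockDefect p b : ℕ) : ℂ) - con p b χ χ) * (((p ^ blockDefect p b : ℕ) : ℂ) - con p b χ χ) =
        (((p ^ blockDefect p b) ^ 2 : ℕ) : ℂ) - ((2 * p ^ blockDefect p b : ℕ) : ℂ) * con p b χ χ +
          con p b χ χ * con p b χ χ := by push_cast; ring
    rw [h4, av_add, av_sub, av_nat, av_natmul, h3, av_con hM hx hb hn] at h2
    have h5 : ((avN p n (((p ^ blockDefect p b : ℕ) : ℂ) - con p b χ χ) : ℝ) : ℂ) =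
        ((((p ^ blockDefect p b : ℕ) : ℝ) ^ 2 - 2 * ((p ^ blockDefect p b : ℕ) : ℝ) * aa p n b χ +
        avN p n (con p b χ χ) : ℝ) : ℂ) := by
      rw [← h2]; push_cast; ring
    exact_mod_cast h5
  have h2 := sum_avN p n b χ
  have h3 : ∑ ψ : IrrCharacter G, fN p n b χ ψ = ∑ ψ : IrrCharacter G, avN p n (con p b χ ψ) +
      (avN p n (((p ^ blockDefect p b : ℕ) : ℂ) - con p b χ χ) - avN p n (con p b χ χ)) := by
    rw [← Finset.add_sum_erase _ _ (Finset.mem_univ χ), ← Finset.add_sum_erase _ (fun ψ => avN p n (con p b χ ψ)) (Finset.mem_univ χ)]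
    have h4 : ∑ ψ ∈ Finset.univ.erase χ, fN p n b χ ψ = ∑ ψ ∈ Finset.univ.erase χ, avN p n (con p b χ ψ) := by
      apply Finset.sum_congr rfl
      intro ψ hψ
      unfold fN
      rw [if_neg (Finset.ne_of_mem_erase hψ)]
    rw [h4]
    have h5 : fN p n b χ χ = avN p n (((p ^ blockDefect p b : ℕ) : ℂ) - con p b χ χ) := by
      unfold fN; rw [if_pos rfl]
    rw [h5]
    ring
  rw [h3, h2, h1]
  ring

theorem aa_le (hM : IsPModular p M) (hx : ∃ k : ℕ, orderOf x = p ^ k) (hb : IsPBlock M b)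
    {n : ℕ} (hn : x ^ (p ^ (n + 1)) = 1) (χ : IrrCharacter G) : aa p n b χ ≤ ((p ^ blockDefect p b : ℕ) : ℝ) := by
  have h1 := sum_fN hM hx hb hn χ
  have h2 : 0 ≤ ∑ ψ : IrrCharacter G, fN p n b χ ψ := Finset.sum_nonneg fun ψ _ => fN_nonneg p n b χ ψ
  rw [h1] at h2
  have h3 : (0 : ℝ) < ((p ^ blockDefect p b : ℕ) : ℝ) := by exact_mod_cast pow_pos (Fact.out : p.Prime).pos _
  have h4 := nonneg_of_mul_nonneg_right h2 h3
  linarith

theorem avN_pow (hM : IsPModular p M) (hx : ∃ k : ℕ, orderOf x = p ^ k)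
    {n : ℕ} (hn : x ^ (p ^ (n + 1)) = 1) {B : Set (IrrCharacter G)}
    (hb : IsInducedBlock M (Subgroup.centralizer ({x} : Set G)) b B)
    (hd : blockDefect p b = blockDefect p B) {χ : IrrCharacter G} (hχ : χ ∈ B)
    (h0 : blockHeight p B (χ : G → ℂ) = 0) {ψ : IrrCharacter G} (hψ : ψ ∈ B) :
    (p : ℝ) ^ (2 * blockHeight p B (ψ : G → ℂ)) ≤ avN p n (con p b χ ψ) :=
  avN_of_div hM (con_mem hM hb.1 hn χ ψ) (major_ne hM hx hb hd hχ h0 hψ hn)
    (major_ring hM hx hb.1 hn hb.2.1 hd χ hψ)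

theorem height_bound (hM : IsPModular p M) {B : Set (IrrCharacter G)} (hB : IsPBlock M B)
    {χ : IrrCharacter G} (hχ : χ ∈ B) (h0 : blockHeight p B (χ : G → ℂ) ≠ 0) :
    blockHeight p B (χ : G → ℂ) + 2 ≤ blockDefect p B := height_le hM hB hχ h0

end Con

end CfsgLib.Contrib20b
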