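import Mathlib
import Cfsg.Agent.EqBase
import Cfsg.Agent.LibCt5

/-!
# Contributions of major subsections: heights; S4541, S4540, S4575 (helper17)
-/

set_option autoImplicit false
set_option linter.unusedSectionVars false
set_option linter.style.haveILetI false
set_option linter.unusedSimpArgs false
set_option linter.unusedVariables false

namespace CfsgLib.Ct

open CfsgLib.CharInt hiding irr_isCharacter irr_classFun irr_one_ne_zero schur_scalar
open Cfsg CfsgLib.CharInt2 CfsgLib.CharBasic CfsgLib.BlockR CfsgLib.BlockCore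
  CfsgLib.BlockIdem CfsgLib.BlockIdeal CfsgLib.BlockConj CfsgLib.BlockBrauer CfsgLib.BlockInd
  CfsgLib.BlockFMT CfsgLib.BlockFMT2 CfsgLib.PLocalInd CfsgLib.BlockOrth CfsgLib.BlockDefect
  CfsgLib.BlockReg CfsgLib.BlockReg2 CfsgLib.BlockCount CfsgLib.BlockCount2 CfsgLib.BlockQP
  CfsgLib.BlockCov3 CfsgLib.BlockCov4 CfsgLib.BlockLoc CfsgLib.BlockM CfsgLib.BlockH
  CfsgLib.BlockH2 CfsgLib.CharNorm CfsgLib.BlockSec CfsgLib.BlockSec3
open scoped ComplexConjugate Pointwise

universe u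

variable {M : Ideal AlgInt} {p : ℕ} [hpF : Fact p.Prime] {G : Type u} [Group G] [Fintype G]
variable {x : G} [hFC : Fintype (Subgroup.centralizer ({x} : Set G))]
variable {b : Set (IrrCharacter (Subgroup.centralizer ({x} : Set G)))} {n : ℕ}

/-! ### heights and major subsections -/

theorem Af_int (hM : IsPModular p M) (hb : IsPBlock M b) (ψ : IrrCharacter G)
    (c : Subgroup.centralizer ({x} : Set G)) : IsIntegral ℤ (Af p x b (ψ : G → ℂ) c) := by
  classical
  have hp := isPrime_of_modular hM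
  have h1 : Af p x b (ψ : G → ℂ) = ∑ μ : IrrCharacter (Subgroup.centralizer ({x} : Set G)),
      (ind b μ * classInner (th x (ψ : G → ℂ)) (μ : Subgroup.centralizer ({x} : Set G) → ℂ)) •
        reg p (μ : Subgroup.centralizer ({x} : Set G) → ℂ) := by
    apply classFun_ext (Af_classFun _)
      (classFun_sum _ fun μ _ => classFun_smul _ (reg_classFun (CharBasic.irr_classFun μ.2)))
    intro lam hl
    unfold Af
    rw [inner_prj b _ ⟨lam, hl⟩, inner_sum_left]
    by_cases h : (⟨lam, hl⟩ : IrrCharacter (Subgroup.centralizer ({x} : Set G))) ∈ b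
    · rw [ind_of h, one_mul, inner_reg_block hM hb (th_classFun (CharBasic.irr_classFun ψ.2)) h]
      refine Finset.sum_congr rfl fun μ _ => ?_
      rw [CharBasic.inner_smul_left, mul_assoc]
    · rw [ind_not h, zero_mul]
      symm
      apply Finset.sum_eq_zero
      intro μ _
      rw [CharBasic.inner_smul_left]
      by_cases hμ : μ ∈ b
      · have h2 := inner_reg_zero (p := p) hM (χ := μ) (ψ := ⟨lam, hl⟩) (fun h3 =>
          h (mem_of_sameBlock hp hb hμ h3))
        rw [show classInner (reg p (μ : Subgroup.centralizer ({x} : Set G) → ℂ)) lam = 0 from h2, mul_zero]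
      · rw [ind_not hμ, zero_mul, zero_mul]
  rw [h1, Finset.sum_apply]
  refine IsIntegral.sum _ fun μ _ => ?_
  rw [Pi.smul_apply, smul_eq_mul]
  refine IsIntegral.mul (IsIntegral.mul ?_ ?_) ?_
  · by_cases h : μ ∈ b
    · rw [ind_of h]; exact isIntegral_one
    · rw [ind_not h]; exact isIntegral_zero
  · obtain ⟨w, hw, h2⟩ := inner_th ψ μ
    obtain ⟨k, hk⟩ := inner_res_nat ψ μ
    rw [h2, hk]
    exact (LocR.isIntegral_of_pow_eq_one (orderOf_pos x) hw).mul (isIntegral_algebraMap (x := (k : ℤ)) |> fun h => by simpa using h)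
  · by_cases hc : p ∣ orderOf c
    · rw [reg_not hc]; exact isIntegral_zero
    · rw [reg_of hc]; exact CharBasic.char_isIntegral (irr_isCharacter μ.2) _

theorem isIntegral_conj {z : ℂ} (hz : IsIntegral ℤ z) : IsIntegral ℤ (conj z) :=
  hz.map (starRingEnd ℂ).toIntAlgHom

/-- the vector `|G| P_χψ / χ(1)` -/
noncomputable def vv (p : ℕ) (x : G) [Fintype (Subgroup.centralizer ({x} : Set G))]
    (b : Set (IrrCharacter (Subgroup.centralizer ({x} : Set G)))) (ψ χ : IrrCharacter G) : ℂ :=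
  (Nat.card G : ℂ) * Pc p x b χ ψ / (χ : G → ℂ) 1

theorem vv_AR (hM : IsPModular p M) (hx : ∃ k : ℕ, orderOf x = p ^ k) (hb : IsPBlock M b)
    (ψ : IrrCharacter G) : AR M (vv p x b ψ) := by
  classical
  haveI := LocR.isPrime hM
  intro g
  have h1 : fou (vv p x b ψ) g = conj (∑ χ : IrrCharacter G,
      classInner (Af p x b (ψ : G → ℂ)) (th x (χ : G → ℂ)) * (χ : G → ℂ) g) := by
    unfold fou
    rw [map_sum, Finset.mul_sum]
    refine Finset.sum_congr rfl fun χ _ => ?_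
    rw [map_mul, ← Pc_eq hM hb, Pc_conj]
    unfold vv
    have hχ := CharBasic.irr_one_ne_zero χ.2
    have hG : (Nat.card G : ℂ) ≠ 0 := by exact_mod_cast Nat.card_pos.ne'
    field_simp
  rw [h1]
  rcases lift_val hx (Af_classFun (ψ : G → ℂ)) (fun c hc => Af_sing hM hb _ hc) g with h2 | ⟨c, hc, h2⟩
  · rw [h2, map_zero]; exact LocR.memR_zero
  · rw [h2]
    exact LocR.memR_of_isIntegral (isIntegral_conj (Af_int hM hb ψ c))

/-- ratio between `Mc` and `vv` -/
theorem Mc_eq_vv (hM : IsPModular p M) {B : Set (IrrCharacter G)} (hB : IsPBlock M B)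
    (hd : blockDefect p b = blockDefect p B) {χ : IrrCharacter G} (hχ : χ ∈ B) (ψ : IrrCharacter G) :
    ∃ r : ℂ, MemLocalRing M r ∧ ¬ MemLocalIdeal M r ∧
      Mc p x b χ ψ / (p : ℂ) ^ blockHeight p B (χ : G → ℂ) = r * vv p x b ψ χ := by
  have hpp : p.Prime := Fact.out
  have hp0 : (p : ℂ) ≠ 0 := by exact_mod_cast hpp.ne_zero
  have hχ1 := (irr_charDegree_pos χ.2).ne'
  have hn1 : p ^ blockDefect p B * charDegree (χ : G → ℂ) ≠ 0 := mul_ne_zero (pow_ne_zero _ hpp.ne_zero) hχ1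
  have hn2 : Nat.card G * p ^ blockHeight p B (χ : G → ℂ) ≠ 0 :=
    mul_ne_zero Nat.card_pos.ne' (pow_ne_zero _ hpp.ne_zero)
  have h1 := degree_eq hM hB hχ
  have hf : (p ^ blockDefect p B * charDegree (χ : G → ℂ)).factorization p =
      (Nat.card G * p ^ blockHeight p B (χ : G → ℂ)).factorization p := by
    rw [Nat.factorization_mul (pow_ne_zero _ hpp.ne_zero) hχ1,
      Nat.factorization_mul Nat.card_pos.ne' (pow_ne_zero _ hpp.ne_zero),
      hpp.factorization_pow, hpp.factorization_pow]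
    simp only [Finsupp.add_apply, Finsupp.single_eq_same]
    omega
  refine ⟨((p ^ blockDefect p B * charDegree (χ : G → ℂ) : ℕ) : ℂ) /
    ((Nat.card G * p ^ blockHeight p B (χ : G → ℂ) : ℕ) : ℂ), ring_div_nat hM hn2 hf.ge, ?_, ?_⟩
  · rw [ideal_div_nat_iff hM hn1 hn2]
    omega
  · unfold vv Mc
    rw [irr_one_eq_charDegree χ.2, hd]
    have h2 : (charDegree (χ : G → ℂ) : ℂ) ≠ 0 := by exact_mod_cast hχ1
    have hG : (Nat.card G : ℂ) ≠ 0 := by exact_mod_cast Nat.card_pos.ne'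
    push_cast
    field_simp

theorem Mc_height_ring (hM : IsPModular p M) (hx : ∃ k : ℕ, orderOf x = p ^ k)
    {B : Set (IrrCharacter G)} (hb : IsInducedBlock M (Subgroup.centralizer ({x} : Set G)) b B)
    (hd : blockDefect p b = blockDefect p B) {χ : IrrCharacter G} (hχ : χ ∈ B) (ψ : IrrCharacter G) :
    MemLocalRing M (Mc p x b χ ψ / (p : ℂ) ^ blockHeight p B (χ : G → ℂ)) := by
  haveI := LocR.isPrime hM
  obtain ⟨r, hr, -, h1⟩ := Mc_eq_vv (x := x) (b := b) hM hb.2.1 hd hχ ψ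
  rw [h1]
  exact LocR.memR_mul hr (AR_val (LocR.isPrime hM) (vv_AR hM hx hb.1 ψ) χ)

theorem Mc_height_unit (hM : IsPModular p M) (hx : ∃ k : ℕ, orderOf x = p ^ k)
    {B : Set (IrrCharacter G)} (hb : IsInducedBlock M (Subgroup.centralizer ({x} : Set G)) b B)
    (hd : blockDefect p b = blockDefect p B) {χ ψ : IrrCharacter G} (hχ : χ ∈ B) (hψ : ψ ∈ B)
    (h0 : blockHeight p B (ψ : G → ℂ) = 0) :
    ¬ MemLocalIdeal M (Mc p x b χ ψ / (p : ℂ) ^ blockHeight p B (χ : G → ℂ)) := by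
  haveI := LocR.isPrime hM
  have hp := LocR.isPrime hM
  obtain ⟨r, hr, hrI, h1⟩ := Mc_eq_vv (x := x) (b := b) hM hb.2.1 hd hχ ψ
  obtain ⟨r', hr', -, h1'⟩ := Mc_eq_vv (x := x) (b := b) hM hb.2.1 hd hψ ψ
  have hv := vv_AR hM hx hb.1 (b := b) ψ
  rw [h0, pow_zero, div_one] at h1'
  have h2 : ¬ MemLocalIdeal M (vv p x b ψ ψ) := by
    intro h3
    apply Mc_unit hM hx hb hψ hψ h0 h0
    rw [h1']
    exact LocR.memI_mul_left hr' h3
  have h3 : ¬ MemLocalIdeal M (vv p x b ψ χ) := by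
    intro h4
    apply h2
    have h5 := sameBlock_val hp hv (sameBlock_of_mem hp hb.2.1 hψ hχ)
    have h6 := LocR.memI_add h5 h4
    rwa [sub_add_cancel] at h6
  rw [h1]
  exact LocR.not_memI_mul hr (AR_val hp hv χ) hrI h3

theorem Mc_ne_zero (hM : IsPModular p M) (hx : ∃ k : ℕ, orderOf x = p ^ k)
    {B : Set (IrrCharacter G)} (hb : IsInducedBlock M (Subgroup.centralizer ({x} : Set G)) b B)
    (hd : blockDefect p b = blockDefect p B) {χ ψ : IrrCharacter G} (hχ : χ ∈ B) (hψ : ψ ∈ B)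
    (h0 : blockHeight p B (ψ : G → ℂ) = 0) : Mc p x b χ ψ ≠ 0 := by
  haveI := LocR.isPrime hM
  intro h1
  apply Mc_height_unit hM hx hb hd hχ hψ h0
  rw [h1, zero_div]; exact LocR.memI_zero

/-- diagonal contributions of positive height are more divisible -/
theorem Mc_diag (hM : IsPModular p M) (hx : ∃ k : ℕ, orderOf x = p ^ k)
    {B : Set (IrrCharacter G)} (hb : IsInducedBlock M (Subgroup.centralizer ({x} : Set G)) b B)
    (hd : blockDefect p b = blockDefect p B) (hn : 0 < n) (hxn : x ^ (p ^ n) = 1)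
    {χ : IrrCharacter G} (hχ : χ ∈ B) (h0 : blockHeight p B (χ : G → ℂ) ≠ 0) :
    MemLocalIdeal M (Mc p x b χ χ / (p : ℂ) ^ blockHeight p B (χ : G → ℂ)) := by
  haveI := LocR.isPrime hM
  have hp := LocR.isPrime hM
  have hp0 : (p : ℂ) ≠ 0 := by exact_mod_cast (Fact.out : p.Prime).ne_zero
  obtain ⟨ψ, hψ, hψ0⟩ := exists_height_zero hM hb.2.1
  have hψ0' := (height_zero_iff hM hb.2.1 hψ).mpr hψ0
  obtain ⟨r, hr, hrI, h1⟩ := Mc_eq_vv (x := x) (b := b) hM hb.2.1 hd hχ χ
  obtain ⟨r', hr', hrI', h1'⟩ := Mc_eq_vv (x := x) (b := b) hM hb.2.1 hd hψ χ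
  rw [hψ0', pow_zero, div_one] at h1'
  have hv := vv_AR hM hx hb.1 (b := b) χ
  -- `Mc ψ χ` is in the ideal
  have h2 := div_ppow hM hn (Mc_mem hM hb.1 hxn χ ψ) (Mc_height_ring hM hx hb hd hχ ψ)
  have h3 := conj_mem h2
  have h4 : Mc p x b ψ χ = (p : ℂ) ^ blockHeight p B (χ : G → ℂ) *
      conj (Mc p x b χ ψ / (p : ℂ) ^ blockHeight p B (χ : G → ℂ)) := by
    rw [map_div₀, map_pow, Complex.conj_natCast, Mc_conj]
    field_simp
  have h5 : MemLocalIdeal M (Mc p x b ψ χ) := by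
    rw [h4]
    exact LocR.memI_mul_right (LocR.memI_pow (LocR.memI_p hM) h0)
      (LocR.memR_of_isIntegral (Op_isIntegral h3))
  rw [h1'] at h5
  have h6 : MemLocalIdeal M (vv p x b χ ψ) := by
    rcases (LocR.memI_mul_iff hr' (AR_val hp hv ψ)).mp h5 with h7 | h7
    · exact absurd h7 hrI'
    · exact h7
  have h7 := sameBlock_val hp hv (sameBlock_of_mem hp hb.2.1 hχ hψ)
  have h8 := LocR.memI_add h7 h6
  rw [sub_add_cancel] at h8
  rw [h1]
  exact LocR.memI_mul_left hr h8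

end CfsgLib.Ct
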