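import Mathlib
import Cfsg.Agent.EqBase
import Cfsg.Agent.LibCt6

/-!
# Contributions for the prime two: S4541, S4540, S4575 (helper17)
-/

set_option autoImplicit false
set_option linter.unusedSectionVars false
set_option linter.style.haveILetI false
set_option linter.unusedSimpArgs false
set_option linter.unusedVariables false

namespace CfsgLib.Ct

open CfsgLib.CharInt hiding irr_isCharacter irr_classFun irr_one_ne_zero schur_scalar
open Cfsg CfsgLib.CharInt2 CfsgLib.CharBasic CfsgLib.BlockR CfsgLib.BlockCore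
  CfsgLib.BlockIdem CfsgLib.BlockIdeal CfsgLib.BlockConj CfsgLib.BlockBrauer CfsgLib.BlockInd
  CfsgLib.BlockFMT CfsgLib.BlockFMT2 CfsgLib.PLocalInd CfsgLib.BlockOrth CfsgLib.BlockDefect
  CfsgLib.BlockReg CfsgLib.BlockReg2 CfsgLib.BlockCount CfsgLib.BlockCount2 CfsgLib.BlockQP
  CfsgLib.BlockCov3 CfsgLib.BlockCov4 CfsgLib.BlockLoc CfsgLib.BlockM CfsgLib.BlockH
  CfsgLib.BlockH2 CfsgLib.CharNorm CfsgLib.BlockSec CfsgLib.BlockSec3
open scoped ComplexConjugate Pointwise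

universe u

variable {M : Ideal AlgInt} {G : Type u} [Group G] [Fintype G]
variable {x : G} [hFC : Fintype (Subgroup.centralizer ({x} : Set G))]
variable {b : Set (IrrCharacter (Subgroup.centralizer ({x} : Set G)))} {m : ℕ}

theorem exists_t (hM : IsPModular 2 M) (hb : IsPBlock M b) (hxn : x ^ (2 ^ (m + 1)) = 1)
    (χ : IrrCharacter G) {h : ℕ} (hR : MemLocalRing M (Mc 2 x b χ χ / (2 : ℂ) ^ h)) :
    ∃ t : ℤ, trr 2 (m + 1) (Mc 2 x b χ χ) = NN 2 (m + 1) * ((2 : ℝ) ^ h * t) ∧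
      MemLocalIdeal M (Mc 2 x b χ χ / (2 : ℂ) ^ h - t) := by
  have h1 : Mc 2 x b χ χ / (2 : ℂ) ^ h ∈ Op 2 (m + 1) := by
    have := div_ppow (p := 2) (n := m + 1) hM (Nat.succ_pos m) (Mc_mem hM hb hxn χ χ) (h := h)
      (by push_cast; exact hR)
    push_cast at this
    exact this
  have h2 : conj (Mc 2 x b χ χ / (2 : ℂ) ^ h) = Mc 2 x b χ χ / (2 : ℂ) ^ h := by
    rw [map_div₀, map_pow, Mc_conj]
    congr 2
    exact map_ofNat _ 2
  obtain ⟨t, ht, htI⟩ := tr_real hM h1 h2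
  refine ⟨t, ?_, htI⟩
  unfold trr NN
  rw [← Complex.re_sum]
  have h3 : ∑ k : (ZMod (2 ^ (m + 1)))ˣ, sg 2 (m + 1) k (Mc 2 x b χ χ) =
      (2 : ℂ) ^ h * ∑ k : (ZMod (2 ^ (m + 1)))ˣ, sg 2 (m + 1) k (Mc 2 x b χ χ / (2 : ℂ) ^ h) := by
    rw [Finset.mul_sum]
    refine Finset.sum_congr rfl fun k _ => ?_
    rw [map_div₀, map_pow, map_ofNat]
    field_simp
  rw [h3, ht]
  have h4 : (2 : ℂ) ^ h * ((Fintype.card (ZMod (2 ^ (m + 1)))ˣ : ℂ) * t) =
      (((Fintype.card (ZMod (2 ^ (m + 1)))ˣ : ℝ) * ((2 : ℝ) ^ h * t) : ℝ) : ℂ) := by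
    push_cast; ring
  rw [h4, Complex.ofReal_re]

/-- row inequality with integers -/
theorem t_row (hM : IsPModular 2 M) (hx : ∃ k : ℕ, orderOf x = 2 ^ k) (hb : IsPBlock M b)
    (hxn : x ^ (2 ^ (m + 1)) = 1) (χ : IrrCharacter G) (S : Finset (IrrCharacter G)) (hχ : χ ∉ S)
    (h : IrrCharacter G → ℕ)
    (hS : ∀ ψ ∈ S, Mc 2 x b χ ψ ≠ 0 ∧ MemLocalRing M (Mc 2 x b χ ψ / (2 : ℂ) ^ h ψ)) {t : ℤ}
    (ht : trr 2 (m + 1) (Mc 2 x b χ χ) = NN 2 (m + 1) * t) :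
    t ^ 2 + ∑ ψ ∈ S, ((2 : ℤ) ^ h ψ) ^ 2 ≤ 2 ^ blockDefect 2 b * t := by
  have h1 := row_bound (p := 2) hM hx hb (Nat.succ_pos m) hxn χ S hχ h (by
    intro ψ hψ
    refine ⟨(hS ψ hψ).1, ?_⟩
    push_cast
    exact (hS ψ hψ).2)
  rw [ht] at h1
  have hN := NN_pos 2 (m + 1)
  set N := NN 2 (m + 1)
  push_cast at h1
  have h2 : ((t : ℝ) ^ 2 + ∑ ψ ∈ S, ((2 : ℝ) ^ h ψ) ^ 2) * (N * N) ≤
      (2 ^ blockDefect 2 b * t) * (N * N) := by nlinarith
  have h3 := le_of_mul_le_mul_right h2 (mul_pos hN hN)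
  have h4 : ((t ^ 2 + ∑ ψ ∈ S, ((2 : ℤ) ^ h ψ) ^ 2 : ℤ) : ℝ) ≤ ((2 ^ blockDefect 2 b * t : ℤ) : ℝ) := by
    push_cast
    exact h3
  exact_mod_cast h4

/-- arithmetic for S4541 -/
theorem arith1 {ι : Type*} (S : Finset ι) (t : ι → ℤ) (Q : ℤ) (l : ℕ) (hQ : 0 ≤ Q)
    (hodd : ∀ i ∈ S, Odd (t i)) (hpos : ∀ i ∈ S, 0 < t i)
    (hrow : ∀ i ∈ S, (t i) ^ 2 + (S.card - 1) ≤ Q * t i) (htr : ∑ i ∈ S, t i ≤ Q * l) :
    (Odd (Nat.sqrt l) → (S.card : ℤ) ≤ Nat.sqrt l * Q) ∧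
    (¬ Odd (Nat.sqrt l) → (Nat.sqrt l + 1) * (S.card : ℤ) ≤ l * Q) ∧
    (l ≤ 3 → (S.card : ℤ) ≤ Q) := by
  set s := Nat.sqrt l with hs
  have hs1 : (s : ℤ) * s ≤ l := by exact_mod_cast Nat.sqrt_le l
  have hs2 : (l : ℤ) < (s + 1) * (s + 1) := by exact_mod_cast Nat.lt_succ_sqrt l
  have hsmall : ∀ i ∈ S, (S.card : ℤ) ≤ Q * t i := by
    intro i hi
    have h1 := hrow i hi
    have h2 := hpos i hi
    nlinarith
  have hbig : ∀ u : ℤ, (∀ i ∈ S, u ≤ t i) → u * S.card ≤ Q * l := by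
    intro u hu
    have : u * (S.card : ℤ) = ∑ i ∈ S, u := by rw [Finset.sum_const, nsmul_eq_mul, mul_comm]
    rw [this]
    exact (Finset.sum_le_sum hu).trans htr
  have h1 : Odd s → (S.card : ℤ) ≤ s * Q := by
    intro ho
    by_cases hex : ∃ i ∈ S, t i ≤ s
    · obtain ⟨i, hi, hle⟩ := hex
      have h3 := hsmall i hi
      nlinarith
    · push Not at hex
      have h4 := hbig (s + 2) (fun i hi => by
        have h5 := hex i hi
        have h6 := hodd i hi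
        obtain ⟨a, ha⟩ := h6
        obtain ⟨c, hc⟩ := ho
        omega)
      have h5 : (l : ℤ) ≤ s * (s + 2) := by nlinarith
      have h6 : ((s : ℤ) + 2) * S.card ≤ (s + 2) * (s * Q) := by nlinarith
      exact le_of_mul_le_mul_left h6 (by positivity)
  have h2 : ¬ Odd s → ((s : ℤ) + 1) * (S.card : ℤ) ≤ l * Q := by
    intro ho
    rw [Nat.not_odd_iff_even] at ho
    by_cases hex : ∃ i ∈ S, t i ≤ s
    · obtain ⟨i, hi, hle⟩ := hex
      have h3 := hsmall i hi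
      have h4 : t i ≤ s - 1 := by
        obtain ⟨a, ha⟩ := hodd i hi
        obtain ⟨c, hc⟩ := ho
        omega
      have h5 : (S.card : ℤ) ≤ Q * (s - 1) := h3.trans (mul_le_mul_of_nonneg_left h4 hQ)
      have h6 : ((s : ℤ) + 1) * S.card ≤ (s + 1) * (Q * (s - 1)) :=
        mul_le_mul_of_nonneg_left h5 (by positivity)
      nlinarith
    · push Not at hex
      have h4 := hbig (s + 1) (fun i hi => by have := hex i hi; omega)
      nlinarith
  refine ⟨h1, h2, ?_⟩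
  intro hl
  by_cases hl0 : l = 0
  · have hs0 : s = 0 := by rw [hs, hl0]; rfl
    have h3 := h2 (by rw [hs0]; decide)
    rw [hs0, hl0] at h3
    push_cast at h3
    linarith
  · have hs0 : s = 1 := by
      have h4 : s < 2 := by
        by_contra h5
        push Not at h5
        have h6 : (2 : ℤ) ≤ s := by exact_mod_cast h5
        have h7 : (l : ℤ) ≤ 3 := by exact_mod_cast hl
        nlinarith
      have h5 : s ≠ 0 := by
        intro h6
        rw [h6] at hs2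
        push_cast at hs2
        have h7 : 0 < l := Nat.pos_of_ne_zero hl0
        omega
      omega
    have h3 := h1 (by rw [hs0]; decide)
    rw [hs0] at h3
    push_cast at h3
    linarith

theorem not_dvd_of_unit (hM : IsPModular 2 M) {z : ℂ} {t : ℤ} (h1 : ¬ MemLocalIdeal M z)
    (h2 : MemLocalIdeal M (z - t)) : Odd t := by
  haveI := LocR.isPrime hM
  rw [← Int.not_even_iff_odd]
  intro h3
  apply h1
  have h4 : MemLocalIdeal M (t : ℂ) := (LocR.memI_intCast_iff hM t).mpr (by exact_mod_cast h3.two_dvd)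
  have h5 := LocR.memI_add h2 h4
  rwa [sub_add_cancel] at h5

theorem dvd_of_mem (hM : IsPModular 2 M) {z : ℂ} {t : ℤ} (h1 : MemLocalIdeal M z)
    (h2 : MemLocalIdeal M (z - t)) : (2 : ℤ) ∣ t := by
  haveI := LocR.isPrime hM
  have h3 := LocR.memI_sub h1 h2
  rw [sub_sub_cancel] at h3
  exact_mod_cast (LocR.memI_intCast_iff hM t).mp h3

theorem exists_m_pow (hx : ∃ k : ℕ, orderOf x = 2 ^ k) : ∃ m : ℕ, x ^ (2 ^ (m + 1)) = 1 := by
  obtain ⟨k, hk⟩ := hx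
  exact ⟨k, by rw [pow_succ, pow_mul, ← hk, pow_orderOf_eq_one, one_pow]⟩

/-- S4541 -/
theorem two_block_bound (hM : IsPModular 2 M) (hx : ∃ k : ℕ, orderOf x = 2 ^ k)
    {B : Set (IrrCharacter G)} (hb : IsInducedBlock M (Subgroup.centralizer ({x} : Set G)) b B)
    (S : Finset (IrrCharacter G)) (hS : ∀ χ ∈ S, χ ∈ B ∧ blockHeight 2 B (χ : G → ℂ) = 0) :
    (Odd (Nat.sqrt (blockRank 2 b)) → S.card ≤ Nat.sqrt (blockRank 2 b) * 2 ^ blockDefect 2 b) ∧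
    (¬ Odd (Nat.sqrt (blockRank 2 b)) →
      (Nat.sqrt (blockRank 2 b) + 1) * S.card ≤ blockRank 2 b * 2 ^ blockDefect 2 b) ∧
    (blockRank 2 b ≤ 3 → S.card ≤ 2 ^ blockDefect 2 b) := by
  classical
  haveI := LocR.isPrime hM
  obtain ⟨m, hxn⟩ := exists_m_pow hx
  have hN := NN_pos 2 (m + 1)
  have h1 : ∀ χ : IrrCharacter G, ∃ t : ℤ, trr 2 (m + 1) (Mc 2 x b χ χ) = NN 2 (m + 1) * t ∧
      MemLocalIdeal M (Mc 2 x b χ χ - t) := by
    intro χ
    obtain ⟨t, ht, htI⟩ := exists_t hM hb.1 hxn χ (h := 0) (by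
      rw [pow_zero, div_one]
      exact LocR.memR_of_isIntegral (Op_isIntegral (Mc_mem hM hb.1 hxn χ χ)))
    rw [pow_zero, one_mul] at ht
    rw [pow_zero, div_one] at htI
    exact ⟨t, ht, htI⟩
  choose t ht htI using h1
  have hnn : ∀ χ, 0 ≤ t χ := by
    intro χ
    have h2 := trr_nonneg hM hx hb.1 hxn χ
    rw [ht] at h2
    have h3 : (0 : ℝ) ≤ t χ := by
      by_contra h4
      push Not at h4
      nlinarith
    exact_mod_cast h3
  have hodd : ∀ χ ∈ S, Odd (t χ) := fun χ hχ =>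
    not_dvd_of_unit hM (Mc_unit hM hx hb (hS χ hχ).1 (hS χ hχ).1 (hS χ hχ).2 (hS χ hχ).2) (htI χ)
  have hpos : ∀ χ ∈ S, 0 < t χ := by
    intro χ hχ
    have h2 := hnn χ
    obtain ⟨a, ha⟩ := hodd χ hχ
    omega
  have hrow : ∀ χ ∈ S, (t χ) ^ 2 + ((S.card : ℤ) - 1) ≤ 2 ^ blockDefect 2 b * t χ := by
    intro χ hχ
    have h2 := t_row hM hx hb.1 hxn χ (S.erase χ) (Finset.notMem_erase χ S) (fun _ => 0) (by
      intro ψ hψ
      have hψS := Finset.mem_of_mem_erase hψ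
      refine ⟨?_, ?_⟩
      · intro h3
        apply Mc_unit hM hx hb (hS χ hχ).1 (hS ψ hψS).1 (hS χ hχ).2 (hS ψ hψS).2
        rw [h3]; exact LocR.memI_zero
      · rw [pow_zero, div_one]
        exact LocR.memR_of_isIntegral (Op_isIntegral (Mc_mem hM hb.1 hxn χ ψ))) (ht χ)
    simp only [pow_zero, one_pow, Finset.sum_const, nsmul_eq_mul, mul_one] at h2
    rw [Finset.card_erase_of_mem hχ] at h2
    have h3 : 0 < S.card := Finset.card_pos.mpr ⟨χ, hχ⟩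
    push_cast [Nat.cast_sub h3] at h2
    exact h2
  have htr : ∑ χ ∈ S, t χ ≤ 2 ^ blockDefect 2 b * blockRank 2 b := by
    have h2 := trace_sum (p := 2) hM hx hb.1 hxn
    have h3 : ∑ χ ∈ S, NN 2 (m + 1) * (t χ : ℝ) ≤ ∑ χ : IrrCharacter G, trr 2 (m + 1) (Mc 2 x b χ χ) := by
      rw [Finset.sum_congr rfl fun χ _ => (ht χ).symm]
      exact Finset.sum_le_sum_of_subset_of_nonneg (Finset.subset_univ _)
        fun χ _ _ => trr_nonneg hM hx hb.1 hxn χ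
    rw [h2, ← Finset.mul_sum] at h3
    have h4 := le_of_mul_le_mul_left h3 hN
    have h5 : ((∑ χ ∈ S, t χ : ℤ) : ℝ) ≤ ((2 ^ blockDefect 2 b * blockRank 2 b : ℤ) : ℝ) := by
      push_cast
      push_cast at h4
      exact h4
    exact_mod_cast h5
  obtain ⟨h2, h3, h4⟩ := arith1 S t (2 ^ blockDefect 2 b) (blockRank 2 b) (by positivity) hodd hpos hrow htr
  refine ⟨fun h => ?_, fun h => ?_, fun h => ?_⟩
  · exact_mod_cast h2 h
  · exact_mod_cast h3 h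
  · exact_mod_cast h4 h

end CfsgLib.Ct
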