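import Mathlib
import Cfsg.Agent.EqBase
import Cfsg.Agent.LibCt7

/-!
# Major subsections for the prime two: S4540, S4575 (helper17)
-/

set_option autoImplicit false
set_option linter.unusedSectionVars false
set_option linter.style.haveILetI false
set_option linter.unusedSimpArgs false
set_option linter.unusedVariables false

namespace CfsgLib.Ct

open CfsgLib.CharInt hiding irr_isCharacter irr_classFun irr_one_ne_zero schur_scalar
open Cfsg CfsgLib.CharInt2 CfsgLib.CharBasic CfsgLib.BlockR CfsgLib.BlockCore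
  CfsgLib.BlockIdem CfsgLib.BlockIdeal CfsgLib.BlockConj CfsgLib.BlockBrauer CfsgLib.BlockInd
  CfsgLib.BlockFMT CfsgLib.BlockFMT2 CfsgLib.PLocalInd CfsgLib.BlockOrth CfsgLib.BlockDefect
  CfsgLib.BlockReg CfsgLib.BlockReg2 CfsgLib.BlockCount CfsgLib.BlockCount2 CfsgLib.BlockQP
  CfsgLib.BlockCov3 CfsgLib.BlockCov4 CfsgLib.BlockLoc CfsgLib.BlockM CfsgLib.BlockH
  CfsgLib.BlockH2 CfsgLib.CharNorm CfsgLib.BlockSec CfsgLib.BlockSec3
open scoped ComplexConjugate Pointwise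

universe u

variable {M : Ideal AlgInt} {G : Type u} [Group G] [Fintype G]
variable {x : G} [hFC : Fintype (Subgroup.centralizer ({x} : Set G))]
variable {b : Set (IrrCharacter (Subgroup.centralizer ({x} : Set G)))} {m : ℕ}

/-- the defect of a major subsection -/
theorem defect_eq_of_major {p : ℕ} [Fact p.Prime] (hM : IsPModular p M) {B : Set (IrrCharacter G)}
    {D : Subgroup G} (hD : IsDefectGroup p M B D) (hzc : ∀ d ∈ D, d * x = x * d)
    (hb : IsInducedBlock M (Subgroup.centralizer ({x} : Set G)) b B)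
    (hbD : IsDefectGroup p M b (D.subgroupOf (Subgroup.centralizer ({x} : Set G)))) :
    blockDefect p b = blockDefect p B := by
  have h1 := card_defectGroup hM hb.2.1 hD
  have h2 := card_defectGroup hM hb.1 hbD
  have h3 : D ≤ Subgroup.centralizer ({x} : Set G) := by
    intro d hd
    rw [Subgroup.mem_centralizer_singleton_iff]
    exact hzc d hd
  rw [Nat.card_congr (Subgroup.subgroupOfEquivOfLe h3).toEquiv, h1] at h2
  exact (Nat.pow_right_injective (Fact.out : p.Prime).two_le h2).symm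

theorem ppow_of_mem {p : ℕ} [Fact p.Prime] (hM : IsPModular p M) {B : Set (IrrCharacter G)}
    {D : Subgroup G} (hD : IsDefectGroup p M B D) {z : G} (hz : z ∈ D) :
    ∃ k : ℕ, orderOf z = p ^ k := by
  have h1 : IsPGroup p D := defectGroup_isPGroup hD
  obtain ⟨k, hk⟩ := (IsPGroup.iff_orderOf.mp h1) ⟨z, hz⟩
  exact ⟨k, by rw [← hk, Subgroup.orderOf_mk]⟩

/-- data of a major subsection for the prime two -/
theorem exists_t_major (hM : IsPModular 2 M) (hx : ∃ k : ℕ, orderOf x = 2 ^ k)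
    {B : Set (IrrCharacter G)} (hb : IsInducedBlock M (Subgroup.centralizer ({x} : Set G)) b B)
    (hd : blockDefect 2 b = blockDefect 2 B) (BF : Finset (IrrCharacter G)) (hBF : ∀ χ, χ ∈ BF ↔ χ ∈ B) :
    ∃ t : IrrCharacter G → ℤ,
      (∀ χ ∈ B, blockHeight 2 B (χ : G → ℂ) = 0 → Odd (t χ)) ∧
      (∀ χ ∈ B, blockHeight 2 B (χ : G → ℂ) ≠ 0 → (2 : ℤ) ^ (blockHeight 2 B (χ : G → ℂ) + 1) ∣ t χ) ∧
      (∀ χ ∈ B, 0 < t χ) ∧
      (∀ χ ∈ B, blockHeight 2 B (χ : G → ℂ) = 0 →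
        (t χ) ^ 2 + ∑ ψ ∈ BF.erase χ, ((2 : ℤ) ^ blockHeight 2 B (ψ : G → ℂ)) ^ 2 ≤
          2 ^ blockDefect 2 B * t χ) ∧
      (∑ χ ∈ BF, t χ = 2 ^ blockDefect 2 B * blockRank 2 b) ∧
      (∀ χ ∈ B, blockHeight 2 B (χ : G → ℂ) ≠ 0 → t χ < 2 ^ blockDefect 2 B) := by
  classical
  haveI := LocR.isPrime hM
  obtain ⟨m, hxn⟩ := exists_m_pow hx
  have hN := NN_pos 2 (m + 1)
  have hring : ∀ χ ∈ B, ∀ ψ : IrrCharacter G,
      MemLocalRing M (Mc 2 x b χ ψ / (2 : ℂ) ^ blockHeight 2 B (χ : G → ℂ)) := by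
    intro χ hχ ψ
    have := Mc_height_ring (p := 2) hM hx hb hd hχ ψ
    push_cast at this
    exact this
  have hring' : ∀ χ ∈ B, ∀ ψ : IrrCharacter G,
      MemLocalRing M (Mc 2 x b ψ χ / (2 : ℂ) ^ blockHeight 2 B (χ : G → ℂ)) := by
    intro χ hχ ψ
    have h2 := conj_mem (div_ppow (p := 2) hM (Nat.succ_pos m) (Mc_mem hM hb.1 hxn χ ψ)
      (h := blockHeight 2 B (χ : G → ℂ)) (by push_cast; exact hring χ hχ ψ))
    rw [map_div₀, map_pow, Complex.conj_natCast, Mc_conj] at h2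
    push_cast at h2
    exact LocR.memR_of_isIntegral (Op_isIntegral h2)
  have h1 : ∀ χ : IrrCharacter G, ∃ t' : ℤ, χ ∈ B → (trr 2 (m + 1) (Mc 2 x b χ χ) =
      NN 2 (m + 1) * ((2 : ℝ) ^ blockHeight 2 B (χ : G → ℂ) * t') ∧
      MemLocalIdeal M (Mc 2 x b χ χ / (2 : ℂ) ^ blockHeight 2 B (χ : G → ℂ) - t')) := by
    intro χ
    by_cases hχ : χ ∈ B
    · obtain ⟨t, ht, htI⟩ := exists_t hM hb.1 hxn χ (hring χ hχ χ)
      exact ⟨t, fun _ => ⟨ht, htI⟩⟩
    · exact ⟨0, fun h => absurd h hχ⟩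
  choose t' ht' using h1
  set t : IrrCharacter G → ℤ := fun χ => 2 ^ blockHeight 2 B (χ : G → ℂ) * t' χ with htdef
  have ht : ∀ χ ∈ B, trr 2 (m + 1) (Mc 2 x b χ χ) = NN 2 (m + 1) * t χ := by
    intro χ hχ
    rw [(ht' χ hχ).1]
    push_cast [htdef]
    rfl
  have hne : ∀ χ ∈ B, ∀ ψ ∈ B, blockHeight 2 B (ψ : G → ℂ) = 0 → Mc 2 x b χ ψ ≠ 0 :=
    fun χ hχ ψ hψ h0 => Mc_ne_zero hM hx hb hd hχ hψ h0
  have hne' : ∀ χ ∈ B, ∀ ψ ∈ B, blockHeight 2 B (χ : G → ℂ) = 0 → Mc 2 x b χ ψ ≠ 0 := by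
    intro χ hχ ψ hψ h0 h2
    apply hne ψ hψ χ hχ h0
    rw [← Mc_conj, h2, map_zero]
  obtain ⟨ψ₀, hψ₀, h00⟩ := exists_height_zero hM hb.2.1
  have hψ00 := (height_zero_iff hM hb.2.1 hψ₀).mpr h00
  have hpos : ∀ χ ∈ B, 0 < t χ := by
    intro χ hχ
    have h2 := row_sum (p := 2) hM hx hb.1 hxn χ
    have h3 : NN 2 (m + 1) ≤ ∑ ψ : IrrCharacter G, sq 2 (m + 1) (Mc 2 x b χ ψ) := by
      refine (card_le 2 (m + 1) (Mc_mem hM hb.1 hxn χ ψ₀) (hne χ hχ ψ₀ hψ₀ hψ00)).trans ?_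
      exact Finset.single_le_sum (f := fun ψ => sq 2 (m + 1) (Mc 2 x b χ ψ))
        (fun ψ _ => sq_nonneg' _) (Finset.mem_univ ψ₀)
    rw [h2, ht χ hχ] at h3
    have h4 : (0 : ℝ) < t χ := by
      by_contra h5
      push Not at h5
      have h6 : (0 : ℝ) < ((2 ^ blockDefect 2 b : ℕ) : ℝ) := by positivity
      have h7 : ((2 ^ blockDefect 2 b : ℕ) : ℝ) * (NN 2 (m + 1) * t χ) ≤ 0 :=
        mul_nonpos_of_nonneg_of_nonpos h6.le (mul_nonpos_of_nonneg_of_nonpos hN.le h5)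
      linarith
    exact_mod_cast h4
  refine ⟨t, ?_, ?_, hpos, ?_, ?_, ?_⟩
  · intro χ hχ h0
    have h2 := (ht' χ hχ).2
    rw [h0, pow_zero, div_one] at h2
    have h3 := not_dvd_of_unit hM (Mc_unit hM hx hb hχ hχ h0 h0) h2
    rw [htdef]; dsimp only
    rw [h0, pow_zero, one_mul]; exact h3
  · intro χ hχ h0
    have h2 : MemLocalIdeal M (Mc 2 x b χ χ / (2 : ℂ) ^ blockHeight 2 B (χ : G → ℂ)) := by
      have := Mc_diag (p := 2) hM hx hb hd (Nat.succ_pos m) hxn hχ h0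
      push_cast at this
      exact this
    have h3 := dvd_of_mem hM h2 (ht' χ hχ).2
    rw [htdef]; dsimp only
    rw [pow_succ]
    exact mul_dvd_mul_left _ h3
  · intro χ hχ h0
    have h2 := t_row hM hx hb.1 hxn χ (BF.erase χ) (Finset.notMem_erase χ BF)
      (fun ψ => blockHeight 2 B (ψ : G → ℂ)) (by
        intro ψ hψ
        have hψB : ψ ∈ B := (hBF ψ).mp (Finset.mem_of_mem_erase hψ)
        exact ⟨hne' χ hχ ψ hψB h0, hring' ψ hψB χ⟩) (ht χ hχ)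
    rwa [hd] at h2
  · have h2 := trace_sum (p := 2) hM hx hb.1 hxn
    have h3 : ∑ χ : IrrCharacter G, trr 2 (m + 1) (Mc 2 x b χ χ) =
        ∑ χ ∈ BF, NN 2 (m + 1) * (t χ : ℝ) := by
      symm
      apply Finset.sum_subset_zero_on_sdiff (Finset.subset_univ _)
      · intro χ hχ
        have h4 : χ ∉ B := fun h5 => (Finset.mem_sdiff.mp hχ).2 ((hBF χ).mpr h5)
        rw [Mc_zero hM hx hb h4]
        unfold trr
        simp
      · intro χ hχ
        exact (ht χ ((hBF χ).mp hχ)).symm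
    rw [h2, ← Finset.mul_sum] at h3
    have h4 := mul_left_cancel₀ hN.ne' h3
    have h5 : ((2 ^ blockDefect 2 B * blockRank 2 b : ℤ) : ℝ) = ((∑ χ ∈ BF, t χ : ℤ) : ℝ) := by
      push_cast
      push_cast at h4
      rw [← hd]
      exact h4
    exact_mod_cast h5.symm
  · intro χ hχ h0
    have hχψ : ψ₀ ≠ χ := by rintro rfl; exact h0 hψ00
    have h2 := t_row hM hx hb.1 hxn χ {ψ₀} (by rw [Finset.mem_singleton]; exact hχψ.symm) (fun _ => 0) (by
        intro ψ hψ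
        rw [Finset.mem_singleton.mp hψ]
        refine ⟨hne χ hχ ψ₀ hψ₀ hψ00, ?_⟩
        rw [pow_zero, div_one]
        exact LocR.memR_of_isIntegral (Op_isIntegral (Mc_mem hM hb.1 hxn χ ψ₀))) (ht χ hχ)
    simp only [pow_zero, one_pow, Finset.sum_singleton] at h2
    rw [hd] at h2
    have h3 := hpos χ hχ
    by_contra h4
    push Not at h4
    nlinarith

/-- S4540, arithmetic form -/
theorem rank_three (hM : IsPModular 2 M) (hx : ∃ k : ℕ, orderOf x = 2 ^ k)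
    {B : Set (IrrCharacter G)} (hb : IsInducedBlock M (Subgroup.centralizer ({x} : Set G)) b B)
    (hd : blockDefect 2 b = blockDefect 2 B) (hl : blockRank 2 b ≤ 3) (B0 B1 : Finset (IrrCharacter G))
    (h0 : ∀ χ, χ ∈ B0 ↔ χ ∈ B ∧ blockHeight 2 B (χ : G → ℂ) = 0)
    (h1 : ∀ χ, χ ∈ B1 ↔ χ ∈ B ∧ 1 ≤ blockHeight 2 B (χ : G → ℂ)) :
    3 * B0.card + 2 * ∑ χ ∈ B1, 2 ^ blockHeight 2 B (χ : G → ℂ) ≤ 3 * 2 ^ blockDefect 2 B := by
  classical
  have hdisj : Disjoint B0 B1 := by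
    rw [Finset.disjoint_left]
    intro χ h2 h3
    have h4 := ((h0 χ).mp h2).2
    have h5 := ((h1 χ).mp h3).2
    omega
  set BF := B0 ∪ B1 with hBFdef
  have hBF : ∀ χ, χ ∈ BF ↔ χ ∈ B := by
    intro χ
    rw [hBFdef, Finset.mem_union, h0, h1]
    constructor
    · rintro (⟨h, -⟩ | ⟨h, -⟩) <;> exact h
    · intro h
      rcases Nat.eq_zero_or_pos (blockHeight 2 B (χ : G → ℂ)) with h2 | h2
      · exact Or.inl ⟨h, h2⟩
      · exact Or.inr ⟨h, h2⟩
  obtain ⟨t, ht1, ht2, ht3, ht4, ht5, ht6⟩ := exists_t_major hM hx hb hd BF hBF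
  have hgoal : (3 : ℤ) * B0.card + 2 * ∑ χ ∈ B1, 2 ^ blockHeight 2 B (χ : G → ℂ) ≤
      3 * 2 ^ blockDefect 2 B := by
    by_cases hex : ∃ χ ∈ B0, t χ = 1
    · obtain ⟨χ, hχ, hχ1⟩ := hex
      have hχ' := (h0 χ).mp hχ
      have h2 := ht4 χ hχ'.1 hχ'.2
      rw [hχ1] at h2
      have h3 : ∑ ψ ∈ BF.erase χ, ((2 : ℤ) ^ blockHeight 2 B (ψ : G → ℂ)) ^ 2 + 1 =
          ∑ ψ ∈ BF, ((2 : ℤ) ^ blockHeight 2 B (ψ : G → ℂ)) ^ 2 := by
        rw [← Finset.sum_erase_add BF _ ((hBF χ).mpr hχ'.1), hχ'.2]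
        norm_num
      have h4 : ∑ ψ ∈ BF, ((2 : ℤ) ^ blockHeight 2 B (ψ : G → ℂ)) ^ 2 =
          B0.card + ∑ ψ ∈ B1, ((2 : ℤ) ^ blockHeight 2 B (ψ : G → ℂ)) ^ 2 := by
        rw [hBFdef, Finset.sum_union hdisj]
        congr 1
        rw [Finset.sum_congr rfl fun ψ hψ => by rw [((h0 ψ).mp hψ).2]]
        simp
      have h5 : 2 * ∑ χ ∈ B1, (2 : ℤ) ^ blockHeight 2 B (χ : G → ℂ) ≤
          3 * ∑ ψ ∈ B1, ((2 : ℤ) ^ blockHeight 2 B (ψ : G → ℂ)) ^ 2 := by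
        rw [Finset.mul_sum, Finset.mul_sum]
        refine Finset.sum_le_sum fun ψ _ => ?_
        have h6 : (1 : ℤ) ≤ 2 ^ blockHeight 2 B (ψ : G → ℂ) := one_le_pow₀ (by norm_num)
        nlinarith
      rw [one_pow, mul_one] at h2
      linarith
    · push Not at hex
      have h2 : ∀ χ ∈ B0, 3 ≤ t χ := by
        intro χ hχ
        have hχ' := (h0 χ).mp hχ
        have h3 := ht3 χ hχ'.1
        have h4 := hex χ hχ
        obtain ⟨a, ha⟩ := ht1 χ hχ'.1 hχ'.2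
        omega
      have h3 : ∀ χ ∈ B1, 2 * 2 ^ blockHeight 2 B (χ : G → ℂ) ≤ t χ := by
        intro χ hχ
        have hχ' := (h1 χ).mp hχ
        have h4 := Int.le_of_dvd (ht3 χ hχ'.1) (ht2 χ hχ'.1 (by omega))
        rw [pow_succ] at h4
        linarith
      have h4 : (3 : ℤ) * B0.card ≤ ∑ χ ∈ B0, t χ := by
        have : (3 : ℤ) * B0.card = ∑ χ ∈ B0, (3 : ℤ) := by
          rw [Finset.sum_const, nsmul_eq_mul, mul_comm]
        rw [this]; exact Finset.sum_le_sum h2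
      have h5 : 2 * ∑ χ ∈ B1, (2 : ℤ) ^ blockHeight 2 B (χ : G → ℂ) ≤ ∑ χ ∈ B1, t χ := by
        rw [Finset.mul_sum]; exact Finset.sum_le_sum h3
      have h6 : ∑ χ ∈ BF, t χ = ∑ χ ∈ B0, t χ + ∑ χ ∈ B1, t χ := by
        rw [hBFdef, Finset.sum_union hdisj]
      have h7 : (2 : ℤ) ^ blockDefect 2 B * blockRank 2 b ≤ 2 ^ blockDefect 2 B * 3 :=
        mul_le_mul_of_nonneg_left (by exact_mod_cast hl) (by positivity)
      linarith
  exact_mod_cast hgoal

/-- S4575 -/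
theorem corank_three (hM : IsPModular 2 M) (hx : ∃ k : ℕ, orderOf x = 2 ^ k)
    {B : Set (IrrCharacter G)} (hb : IsInducedBlock M (Subgroup.centralizer ({x} : Set G)) b B)
    (hd : blockDefect 2 b = blockDefect 2 B) (BF : Finset (IrrCharacter G)) (hBF : ∀ χ, χ ∈ BF ↔ χ ∈ B)
    (hl : BF.card ≤ blockRank 2 b + 3) : BF.card ≤ 2 ^ blockDefect 2 B := by
  classical
  obtain ⟨t, ht1, ht2, ht3, ht4, ht5, ht6⟩ := exists_t_major hM hx hb hd BF hBF
  have hgoal : (BF.card : ℤ) ≤ 2 ^ blockDefect 2 B := by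
    -- lower bound for the row
    have hrow : ∀ χ ∈ B, blockHeight 2 B (χ : G → ℂ) = 0 →
        (t χ) ^ 2 + ((BF.card : ℤ) - 1) ≤ 2 ^ blockDefect 2 B * t χ := by
      intro χ hχ h0
      have h2 := ht4 χ hχ h0
      have h3 : ((BF.card : ℤ) - 1) ≤ ∑ ψ ∈ BF.erase χ, ((2 : ℤ) ^ blockHeight 2 B (ψ : G → ℂ)) ^ 2 := by
        have h4 : (((BF.erase χ).card : ℕ) : ℤ) = (BF.card : ℤ) - 1 := by
          rw [Finset.card_erase_of_mem ((hBF χ).mpr hχ)]
          have : 0 < BF.card := Finset.card_pos.mpr ⟨χ, (hBF χ).mpr hχ⟩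
          omega
        rw [← h4]
        have h5 : (((BF.erase χ).card : ℕ) : ℤ) = ∑ ψ ∈ BF.erase χ, (1 : ℤ) := by simp
        rw [h5]
        refine Finset.sum_le_sum fun ψ _ => ?_
        have h6 : (1 : ℤ) ≤ 2 ^ blockHeight 2 B (ψ : G → ℂ) := one_le_pow₀ (by norm_num)
        nlinarith
      linarith
    by_cases hex : ∃ χ ∈ B, blockHeight 2 B (χ : G → ℂ) = 0 ∧ 2 ^ blockDefect 2 B - t χ ≤ 1
    · obtain ⟨χ, hχ, h0, hle⟩ := hex
      have h2 := hrow χ hχ h0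
      have h3 := ht3 χ hχ
      nlinarith
    · push Not at hex
      have h2 : ∀ χ ∈ BF, 3 ≤ 2 ^ blockDefect 2 B - t χ := by
        intro χ hχ
        have hχB := (hBF χ).mp hχ
        by_cases h0 : blockHeight 2 B (χ : G → ℂ) = 0
        · have h3 := hex χ hχB h0
          obtain ⟨a, ha⟩ := ht1 χ hχB h0
          by_cases hd0 : blockDefect 2 B = 0
          · rw [hd0, pow_zero] at h3
            have := ht3 χ hχB
            omega
          · obtain ⟨c, hc⟩ : (2 : ℤ) ∣ 2 ^ blockDefect 2 B := dvd_pow_self 2 hd0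
            omega
        · have h3 := ht6 χ hχB h0
          have h4 := ht2 χ hχB h0
          have h5 := height_le (p := 2) hM hb.2.1 hχB h0
          have h6 : (4 : ℤ) ∣ t χ := by
            refine dvd_trans ?_ h4
            have : (4 : ℤ) = 2 ^ 2 := by norm_num
            rw [this]
            exact pow_dvd_pow 2 (by omega)
          have h7 : (4 : ℤ) ∣ 2 ^ blockDefect 2 B := by
            have : (4 : ℤ) = 2 ^ 2 := by norm_num
            rw [this]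
            exact pow_dvd_pow 2 (by omega)
          omega
      have h3 : (3 : ℤ) * BF.card ≤ ∑ χ ∈ BF, (2 ^ blockDefect 2 B - t χ) := by
        have : (3 : ℤ) * BF.card = ∑ χ ∈ BF, (3 : ℤ) := by
          rw [Finset.sum_const, nsmul_eq_mul, mul_comm]
        rw [this]; exact Finset.sum_le_sum h2
      rw [Finset.sum_sub_distrib, ht5, Finset.sum_const, nsmul_eq_mul] at h3
      have h4 : (BF.card : ℤ) - blockRank 2 b ≤ 3 := by
        have : (BF.card : ℤ) ≤ blockRank 2 b + 3 := by exact_mod_cast hl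
        linarith
      have h5 : (0 : ℤ) < 2 ^ blockDefect 2 B := by positivity
      nlinarith
  exact_mod_cast hgoal

end CfsgLib.Ct
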