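import Mathlib
import Cfsg.Agent.EqBase
import Cfsg.Agent.LibCt8

/-!
# The lattice of restrictions to `p`-regular elements of a block (helper17)
-/

set_option autoImplicit false
set_option linter.unusedSectionVars false
set_option linter.style.haveILetI false
set_option linter.unusedSimpArgs false
set_option linter.unusedVariables false

namespace CfsgLib.Ct

open CfsgLib.CharInt hiding irr_isCharacter irr_classFun irr_one_ne_zero schur_scalar
open Cfsg CfsgLib.CharInt2 CfsgLib.CharBasic CfsgLib.BlockR CfsgLib.BlockCore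
  CfsgLib.BlockIdem CfsgLib.BlockIdeal CfsgLib.BlockConj CfsgLib.BlockBrauer CfsgLib.BlockInd
  CfsgLib.BlockFMT CfsgLib.BlockFMT2 CfsgLib.PLocalInd CfsgLib.BlockOrth CfsgLib.BlockDefect
  CfsgLib.BlockReg CfsgLib.BlockReg2 CfsgLib.BlockCount CfsgLib.BlockCount2 CfsgLib.BlockQP
  CfsgLib.BlockCov3 CfsgLib.BlockCov4 CfsgLib.BlockLoc CfsgLib.BlockM CfsgLib.BlockH
  CfsgLib.BlockH2 CfsgLib.CharNorm CfsgLib.BlockSec CfsgLib.BlockSec3
open scoped ComplexConjugate Pointwise

universe u

variable {M : Ideal AlgInt} {p : ℕ} [hpF : Fact p.Prime]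

section Lat

variable {H : Type u} [Group H] [Fintype H] {b : Set (IrrCharacter H)}

theorem eq_zero_of_inner {f : H → ℂ} (h : classInner f f = 0) : f = 0 := by
  have h1 : classInner f f = (((Nat.card H : ℝ)⁻¹ * ∑ x : H, Complex.normSq (f x) : ℝ) : ℂ) := by
    unfold classInner
    push_cast
    congr 1
    exact Finset.sum_congr rfl fun x _ => Complex.mul_conj _
  rw [h1] at h
  have h2 : (Nat.card H : ℝ)⁻¹ * ∑ x : H, Complex.normSq (f x) = 0 := by exact_mod_cast h
  have h3 : (Nat.card H : ℝ)⁻¹ ≠ 0 := inv_ne_zero (by exact_mod_cast Nat.card_pos.ne')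
  have h4 := (mul_eq_zero.mp h2).resolve_left h3
  rw [Finset.sum_eq_zero_iff_of_nonneg (fun _ _ => Complex.normSq_nonneg _)] at h4
  funext x
  exact Complex.normSq_eq_zero.mp (h4 x (Finset.mem_univ x))

/-- the lattice -/
def Lam (p : ℕ) (b : Set (IrrCharacter H)) : Submodule ℤ (H → ℂ) :=
  Submodule.span ℤ {f | ∃ μ ∈ b, f = reg p (μ : H → ℂ)}

theorem reg_mem_Lam {μ : IrrCharacter H} (hμ : μ ∈ b) : reg p (μ : H → ℂ) ∈ Lam p b :=
  Submodule.subset_span ⟨μ, hμ, rfl⟩

theorem zsmul_eq (a : ℤ) (f : H → ℂ) : a • f = (a : ℂ) • f := by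
  funext x
  simp [zsmul_eq_mul]

theorem Lam_props (hM : IsPModular p M) (hb : IsPBlock M b) {f : H → ℂ} (hf : f ∈ Lam p b) :
    IsClassFunction H f ∧ reg p f = f ∧ prj b f = f ∧ ∀ c, IsIntegral ℤ (f c) := by
  induction hf using Submodule.span_induction with
  | mem f hf =>
    obtain ⟨μ, hμ, rfl⟩ := hf
    refine ⟨reg_classFun (CharBasic.irr_classFun μ.2), reg_reg _, prj_reg_self hM hb hμ, fun c => ?_⟩
    by_cases hc : p ∣ orderOf c
    · rw [reg_not hc]; exact isIntegral_zero
    · rw [reg_of hc]; exact CharBasic.char_isIntegral (irr_isCharacter μ.2) _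
  | zero =>
    refine ⟨fun _ _ => rfl, ?_, ?_, fun c => isIntegral_zero⟩
    · funext c
      by_cases hc : p ∣ orderOf c
      · rw [reg_not hc]; rfl
      · rw [reg_of hc]
    · funext c
      rw [prj_apply]
      apply Finset.sum_eq_zero
      intro μ _
      have : classInner (0 : H → ℂ) (μ : H → ℂ) = 0 := by unfold classInner; simp
      rw [this]; ring
  | add f g _ _ hf hg =>
    obtain ⟨h1, h2, h3, h4⟩ := hf
    obtain ⟨h1', h2', h3', h4'⟩ := hg
    refine ⟨CharBasic.classFun_add h1 h1', ?_, ?_, fun c => (h4 c).add (h4' c)⟩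
    · funext c
      by_cases hc : p ∣ orderOf c
      · rw [reg_not hc]
        have e1 := congrFun h2 c
        have e2 := congrFun h2' c
        rw [reg_not hc] at e1 e2
        rw [Pi.add_apply, ← e1, ← e2, add_zero]
      · rw [reg_of hc]
    · conv_rhs => rw [← h3, ← h3']
      funext c
      rw [Pi.add_apply, prj_apply, prj_apply, prj_apply, ← Finset.sum_add_distrib]
      refine Finset.sum_congr rfl fun μ _ => ?_
      rw [CharBasic.inner_add_left]; ring
  | smul a f _ hf =>
    obtain ⟨h1, h2, h3, h4⟩ := hf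
    rw [zsmul_eq]
    refine ⟨CharBasic.classFun_smul _ h1, ?_, ?_, fun c => ?_⟩
    · funext c
      by_cases hc : p ∣ orderOf c
      · rw [reg_not hc]
        have e1 := congrFun h2 c
        rw [reg_not hc] at e1
        rw [Pi.smul_apply, ← e1, smul_zero]
      · rw [reg_of hc]
    · conv_rhs => rw [← h3]
      funext c
      rw [Pi.smul_apply, prj_apply, prj_apply, smul_eq_mul, Finset.mul_sum]
      refine Finset.sum_congr rfl fun μ _ => ?_
      rw [CharBasic.inner_smul_left]; ring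
    · rw [Pi.smul_apply, smul_eq_mul]
      have : IsIntegral ℤ ((a : ℤ) : ℂ) := by
        have := isIntegral_algebraMap (R := ℤ) (A := ℂ) (x := a)
        simpa using this
      exact this.mul (h4 c)

/-- the normalised pairing -/
noncomputable def qp (p : ℕ) (b : Set (IrrCharacter H)) (f g : H → ℂ) : ℂ :=
  ((p ^ blockDefect p b : ℕ) : ℂ) * classInner f g

theorem qp_int (hM : IsPModular p M) (hb : IsPBlock M b) {f g : H → ℂ} (hf : f ∈ Lam p b)
    (hg : g ∈ Lam p b) : ∃ m : ℤ, qp p b f g = m := by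
  unfold qp
  induction hf using Submodule.span_induction with
  | mem f hf =>
    obtain ⟨μ, hμ, rfl⟩ := hf
    induction hg using Submodule.span_induction with
    | mem g hg =>
      obtain ⟨lam, hl, rfl⟩ := hg
      rw [← inner_reg_adj, reg_reg]
      exact exists_mm hM hb hμ lam
    | zero => exact ⟨0, by unfold classInner; simp⟩
    | add g g' _ _ hg hg' =>
      obtain ⟨m, hm⟩ := hg
      obtain ⟨m', hm'⟩ := hg'
      refine ⟨m + m', ?_⟩
      rw [Int.cast_add, ← hm, ← hm', CharBasic.inner_add_right]; ring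
    | smul a g _ hg =>
      obtain ⟨m, hm⟩ := hg
      refine ⟨a * m, ?_⟩
      push_cast
      rw [← hm, zsmul_eq, CharBasic.inner_smul_right, show conj ((a : ℤ) : ℂ) = (a : ℂ) from
        map_intCast _ _]
      push_cast; ring
  | zero => exact ⟨0, by unfold classInner; simp⟩
  | add f f' _ _ hf hf' =>
    obtain ⟨m, hm⟩ := hf
    obtain ⟨m', hm'⟩ := hf'
    refine ⟨m + m', ?_⟩
    rw [Int.cast_add, ← hm, ← hm', CharBasic.inner_add_left]; ring
  | smul a f _ hf =>
    obtain ⟨m, hm⟩ := hf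
    refine ⟨a * m, ?_⟩
    push_cast
    rw [← hm, zsmul_eq, CharBasic.inner_smul_left]
    push_cast; ring

/-- rank one modulo `p` -/
theorem qp_rank_one (hM : IsPModular p M) (hb : IsPBlock M b) {μ₀ : IrrCharacter H} (hμ₀ : μ₀ ∈ b)
    {g : H → ℂ} (hg : g ∈ Lam p b) : ∃ w : ℂ, MemLocalRing M w ∧ ∀ f ∈ Lam p b,
      MemLocalIdeal M (qp p b f g - omg (μ₀ : H → ℂ) (fun c => f c⁻¹) * w) := by
  haveI := LocR.isPrime hM
  have hp := LocR.isPrime hM
  have hfR : ∀ f ∈ Lam p b, ∀ c, MemLocalRing M (f c) := fun f hf c =>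
    LocR.memR_of_isIntegral ((Lam_props hM hb hf).2.2.2 c)
  have hfc : ∀ f ∈ Lam p b, IsClassFunction H (fun c => f c⁻¹) := by
    intro f hf g h
    have h1 := (Lam_props hM hb hf).1 g⁻¹ h
    change f (h * g * h⁻¹)⁻¹ = f g⁻¹
    rw [← h1]; congr 1; group
  have hAR : ∀ f ∈ Lam p b, AR M (fun ξ : IrrCharacter H => omg (ξ : H → ℂ) (fun c => f c⁻¹)) := by
    intro f hf g
    rw [fou_omg (hfc f hf)]; exact hfR f hf _
  induction hg using Submodule.span_induction with
  | mem g hg =>
    obtain ⟨μ, hμ, rfl⟩ := hg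
    refine ⟨ud p b μ, ud_ring hM hb hμ, fun f hf => ?_⟩
    have h1 : qp p b f (reg p (μ : H → ℂ)) = ud p b μ * omg (μ : H → ℂ) (fun c => f c⁻¹) := by
      unfold qp
      rw [← inner_reg_adj, (Lam_props hM hb hf).2.1, inner_ud b]
    rw [h1]
    have h2 := sameBlock_val hp (hAR f hf) (sameBlock_of_mem hp hb hμ hμ₀)
    have h3 : ud p b μ * omg (μ : H → ℂ) (fun c => f c⁻¹) - omg (μ₀ : H → ℂ) (fun c => f c⁻¹) * ud p b μ =
        ud p b μ * (omg (μ : H → ℂ) (fun c => f c⁻¹) - omg (μ₀ : H → ℂ) (fun c => f c⁻¹)) := by ring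
    rw [h3]
    exact LocR.memI_mul_left (ud_ring hM hb hμ) h2
  | zero =>
    refine ⟨0, LocR.memR_zero, fun f _ => ?_⟩
    have : qp p b f 0 = 0 := by unfold qp classInner; simp
    rw [this, mul_zero, sub_zero]; exact LocR.memI_zero
  | add g g' _ _ hg hg' =>
    obtain ⟨w, hw, h1⟩ := hg
    obtain ⟨w', hw', h1'⟩ := hg'
    refine ⟨w + w', LocR.memR_add hw hw', fun f hf => ?_⟩
    have h2 := LocR.memI_add (h1 f hf) (h1' f hf)
    have h3 : qp p b f (g + g') - omg (μ₀ : H → ℂ) (fun c => f c⁻¹) * (w + w') =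
        qp p b f g - omg (μ₀ : H → ℂ) (fun c => f c⁻¹) * w +
        (qp p b f g' - omg (μ₀ : H → ℂ) (fun c => f c⁻¹) * w') := by
      unfold qp
      rw [CharBasic.inner_add_right]; ring
    rw [h3]; exact h2
  | smul a g _ hg =>
    obtain ⟨w, hw, h1⟩ := hg
    refine ⟨a * w, LocR.memR_mul (LocR.memR_intCast a) hw, fun f hf => ?_⟩
    have h2 := LocR.memI_mul_left (LocR.memR_intCast (M := M) a) (h1 f hf)
    have h3 : qp p b f (a • g) - omg (μ₀ : H → ℂ) (fun c => f c⁻¹) * (a * w) =
        a * (qp p b f g - omg (μ₀ : H → ℂ) (fun c => f c⁻¹) * w) := by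
      unfold qp
      rw [zsmul_eq, CharBasic.inner_smul_right, show conj ((a : ℤ) : ℂ) = (a : ℂ) from
        map_intCast _ _]; ring
    rw [h3]; exact h2

instance Lam_finite : Module.Finite ℤ (Lam p b) := by
  classical
  unfold Lam
  have h1 : {f : H → ℂ | ∃ μ ∈ b, f = reg p (μ : H → ℂ)} =
      (fun μ : IrrCharacter H => reg p (μ : H → ℂ)) '' b := by
    ext f
    constructor
    · rintro ⟨μ, hμ, rfl⟩; exact ⟨μ, hμ, rfl⟩
    · rintro ⟨μ, hμ, rfl⟩; exact ⟨μ, hμ, rfl⟩
  rw [h1]
  exact Module.Finite.span_of_finite ℤ (Set.toFinite _)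

instance Lam_free : Module.Free ℤ (Lam p b) := by
  haveI : Module.IsTorsionFree ℤ (Lam p b) := inferInstance
  infer_instance

/-- the rank of the lattice -/
noncomputable abbrev rk (p : ℕ) (b : Set (IrrCharacter H)) : ℕ := Module.finrank ℤ (Lam p b)

noncomputable def bas (p : ℕ) [Fact p.Prime] (b : Set (IrrCharacter H)) : Module.Basis (Fin (rk p b)) ℤ (Lam p b) :=
  Module.finBasis ℤ (Lam p b)

/-- the basis functions -/
noncomputable def ph (p : ℕ) [Fact p.Prime] (b : Set (IrrCharacter H)) (i : Fin (rk p b)) : H → ℂ :=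
  (bas p b i : H → ℂ)

theorem ph_mem (i : Fin (rk p b)) : ph p b i ∈ Lam p b := (bas p b i).2

theorem ph_expand {f : H → ℂ} (hf : f ∈ Lam p b) :
    f = ∑ i, (((bas p b).repr ⟨f, hf⟩ i : ℤ) : ℂ) • ph p b i := by
  have h1 := congrArg (Subtype.val) ((bas p b).sum_repr ⟨f, hf⟩)
  rw [Submodule.coe_sum] at h1
  conv_lhs => rw [show f = ((⟨f, hf⟩ : Lam p b) : H → ℂ) from rfl, ← h1]
  refine Finset.sum_congr rfl fun i _ => ?_
  rw [Submodule.coe_smul, zsmul_eq]
  rfl

/-- the Gram matrix -/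
noncomputable def Qm (hM : IsPModular p M) (hb : IsPBlock M b) (i j : Fin (rk p b)) : ℤ :=
  Classical.choose (qp_int hM hb (ph_mem i) (ph_mem j))

theorem Qm_spec (hM : IsPModular p M) (hb : IsPBlock M b) (i j : Fin (rk p b)) :
    qp p b (ph p b i) (ph p b j) = Qm hM hb i j :=
  Classical.choose_spec (qp_int hM hb (ph_mem i) (ph_mem j))

theorem Qm_symm (hM : IsPModular p M) (hb : IsPBlock M b) (i j : Fin (rk p b)) :
    Qm hM hb i j = Qm hM hb j i := by
  have h1 : (Qm hM hb i j : ℂ) = (Qm hM hb j i : ℂ) := by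
    have h2 : qp p b (ph p b i) (ph p b j) = conj (qp p b (ph p b j) (ph p b i)) := by
      unfold qp
      rw [map_mul, Complex.conj_natCast, CharBasic.inner_conj_symm]
    rw [Qm_spec hM hb, Qm_spec hM hb] at h2
    rw [h2]
    exact map_intCast _ _
  exact_mod_cast h1

/-- the Gram matrix is nonsingular -/
theorem Qm_det (hM : IsPModular p M) (hb : IsPBlock M b) :
    Matrix.det (Matrix.of (Qm hM hb)) ≠ 0 := by
  classical
  intro h0
  obtain ⟨v, hv, hQv⟩ := Matrix.exists_mulVec_eq_zero_iff.mpr h0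
  set f : H → ℂ := ∑ j, ((v j : ℤ) : ℂ) • ph p b j with hf
  have hp0 : ((p ^ blockDefect p b : ℕ) : ℂ) ≠ 0 := by
    exact_mod_cast (pow_ne_zero _ (Fact.out : p.Prime).ne_zero : (p ^ blockDefect p b : ℕ) ≠ 0)
  have h1 : ∀ i, classInner (ph p b i) f = 0 := by
    intro i
    have h2 : ((p ^ blockDefect p b : ℕ) : ℂ) * classInner (ph p b i) f = 0 := by
      rw [hf, CharBasic.inner_sum_right, Finset.mul_sum]
      have h3 := congrFun hQv i
      simp only [Matrix.mulVec, dotProduct, Matrix.of_apply, Pi.zero_apply] at h3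
      have h4 : ((∑ j, Qm hM hb i j * v j : ℤ) : ℂ) = 0 := by rw [h3]; simp
      rw [← h4]
      push_cast
      refine Finset.sum_congr rfl fun j _ => ?_
      rw [CharBasic.inner_smul_right, show conj ((v j : ℤ) : ℂ) = (v j : ℂ) from map_intCast _ _,
        ← Qm_spec hM hb]
      unfold qp
      push_cast; ring
    exact (mul_eq_zero.mp h2).resolve_left hp0
  have h2 : classInner f f = 0 := by
    conv_lhs => rw [hf]
    rw [inner_sum_left]
    apply Finset.sum_eq_zero
    intro j _
    rw [CharBasic.inner_smul_left, h1 j, mul_zero]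
  have h3 := eq_zero_of_inner h2
  apply hv
  funext j
  have h4 : (∑ j, v j • bas p b j) = 0 := by
    apply Subtype.ext
    rw [Submodule.coe_sum]
    have h5 : ∑ j, ((v j • bas p b j : Lam p b) : H → ℂ) = f := by
      rw [hf]
      refine Finset.sum_congr rfl fun i _ => ?_
      rw [Submodule.coe_smul, zsmul_eq]
      rfl
    rw [h5, h3]; rfl
  exact Fintype.linearIndependent_iff.mp (bas p b).linearIndependent v h4 j

/-- the basis functions are linearly independent over `ℂ` -/
theorem ph_indep (hM : IsPModular p M) (hb : IsPBlock M b) : LinearIndependent ℂ (ph p b) := by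
  classical
  rw [Fintype.linearIndependent_iff]
  intro c hc
  have hdet : Matrix.det ((Matrix.of (Qm hM hb)).map (Int.cast : ℤ → ℂ)) ≠ 0 := by
    have h1 : Matrix.det ((Matrix.of (Qm hM hb)).map (Int.cast : ℤ → ℂ)) =
        ((Matrix.det (Matrix.of (Qm hM hb)) : ℤ) : ℂ) := by
      have := (Int.castRingHom ℂ).map_det (Matrix.of (Qm hM hb))
      exact this.symm
    rw [h1]
    exact_mod_cast Qm_det hM hb
  have h2 : ((Matrix.of (Qm hM hb)).map (Int.cast : ℤ → ℂ)).mulVec (fun j => conj (c j)) = 0 := by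
    funext i
    simp only [Matrix.mulVec, dotProduct, Matrix.map_apply, Matrix.of_apply, Pi.zero_apply]
    have h3 : qp p b (ph p b i) (∑ j, c j • ph p b j) = 0 := by
      rw [hc]; unfold qp classInner; simp
    rw [← h3]
    unfold qp
    rw [CharBasic.inner_sum_right, Finset.mul_sum]
    refine Finset.sum_congr rfl fun j _ => ?_
    rw [CharBasic.inner_smul_right, ← Qm_spec hM hb]
    unfold qp
    ring
  have h3 := Matrix.eq_zero_of_mulVec_eq_zero hdet h2
  intro j
  have h4 := congrFun h3 j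
  simp only [Pi.zero_apply] at h4
  have h5 := congrArg conj h4
  rwa [Complex.conj_conj, map_zero] at h5

theorem rk_le (hM : IsPModular p M) (hb : IsPBlock M b) : rk p b ≤ blockRank p b := by
  classical
  set V : Submodule ℂ (H → ℂ) :=
    Submodule.span ℂ ((fun χ : IrrCharacter H => pRegularPart p (χ : H → ℂ)) '' b) with hV
  have h1 : ∀ f ∈ Lam p b, f ∈ V := by
    intro f hf
    induction hf using Submodule.span_induction with
    | mem f hf =>
      obtain ⟨μ, hμ, rfl⟩ := hf
      exact Submodule.subset_span ⟨μ, hμ, pRegularPart_eq _⟩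
    | zero => exact zero_mem _
    | add f g _ _ hf hg => exact add_mem hf hg
    | smul a f _ hf => rw [zsmul_eq]; exact Submodule.smul_mem _ _ hf
  have h2 : LinearIndependent ℂ (fun i => (⟨ph p b i, h1 _ (ph_mem i)⟩ : V)) := by
    have := ph_indep hM hb
    exact LinearIndependent.of_comp V.subtype this
  haveI : Module.Finite ℂ V := inferInstance
  have h3 := h2.fintype_card_le_finrank
  rw [Fintype.card_fin] at h3
  exact h3

end Lat

end CfsgLib.Ct
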