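import Mathlib
import Cfsg.Agent.EqBase
import Cfsg.Agent.LibCt9

/-!
# Generalised decomposition numbers as lattice coordinates (helper17)
-/

set_option autoImplicit false
set_option linter.unusedSectionVars false
set_option linter.style.haveILetI false
set_option linter.unusedSimpArgs false
set_option linter.unusedVariables false

namespace CfsgLib.Ct

open CfsgLib.CharInt hiding irr_isCharacter irr_classFun irr_one_ne_zero schur_scalar
open Cfsg CfsgLib.CharInt2 CfsgLib.CharBasic CfsgLib.BlockR CfsgLib.BlockCore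
  CfsgLib.BlockIdem CfsgLib.BlockIdeal CfsgLib.BlockConj CfsgLib.BlockBrauer CfsgLib.BlockInd
  CfsgLib.BlockFMT CfsgLib.BlockFMT2 CfsgLib.PLocalInd CfsgLib.BlockOrth CfsgLib.BlockDefect
  CfsgLib.BlockReg CfsgLib.BlockReg2 CfsgLib.BlockCount CfsgLib.BlockCount2 CfsgLib.BlockQP
  CfsgLib.BlockCov3 CfsgLib.BlockCov4 CfsgLib.BlockLoc CfsgLib.BlockM CfsgLib.BlockH
  CfsgLib.BlockH2 CfsgLib.CharNorm CfsgLib.BlockSec CfsgLib.BlockSec3
open scoped ComplexConjugate Pointwise

universe u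

variable {M : Ideal AlgInt} {p : ℕ} [hpF : Fact p.Prime] {G : Type u} [Group G] [Fintype G]
variable {x : G} [hFC : Fintype (Subgroup.centralizer ({x} : Set G))]
variable {b : Set (IrrCharacter (Subgroup.centralizer ({x} : Set G)))} {n : ℕ}

theorem Af_sum (hM : IsPModular p M) (hb : IsPBlock M b) (ψ : IrrCharacter G) :
    Af p x b (ψ : G → ℂ) = ∑ μ : IrrCharacter (Subgroup.centralizer ({x} : Set G)),
      (ind b μ * classInner (th x (ψ : G → ℂ)) (μ : Subgroup.centralizer ({x} : Set G) → ℂ)) •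
        reg p (μ : Subgroup.centralizer ({x} : Set G) → ℂ) := by
  classical
  have hp := isPrime_of_modular hM
  apply classFun_ext (Af_classFun _)
    (classFun_sum _ fun μ _ => classFun_smul _ (reg_classFun (CharBasic.irr_classFun μ.2)))
  intro lam hl
  unfold Af
  rw [inner_prj b _ ⟨lam, hl⟩, inner_sum_left]
  by_cases h : (⟨lam, hl⟩ : IrrCharacter (Subgroup.centralizer ({x} : Set G))) ∈ b
  · rw [ind_of h, one_mul, inner_reg_block hM hb (th_classFun (CharBasic.irr_classFun ψ.2)) h]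
    refine Finset.sum_congr rfl fun μ _ => ?_
    rw [CharBasic.inner_smul_left, mul_assoc]
  · rw [ind_not h, zero_mul]
    symm
    apply Finset.sum_eq_zero
    intro μ _
    rw [CharBasic.inner_smul_left]
    by_cases hμ : μ ∈ b
    · have h2 := inner_reg_zero (p := p) hM (χ := μ) (ψ := ⟨lam, hl⟩) (fun h3 =>
        h (mem_of_sameBlock hp hb hμ h3))
      rw [show classInner (reg p (μ : Subgroup.centralizer ({x} : Set G) → ℂ)) lam = 0 from h2, mul_zero]
    · rw [ind_not hμ, zero_mul, zero_mul]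

open Classical in
/-- coordinates of the regular parts -/
noncomputable def dd (p : ℕ) [Fact p.Prime] {H : Type u} [Group H] [Fintype H] (b : Set (IrrCharacter H))
    (μ : IrrCharacter H) (i : Fin (rk p b)) : ℤ :=
  if h : μ ∈ b then (bas p b).repr ⟨reg p (μ : H → ℂ), reg_mem_Lam h⟩ i else 0

theorem reg_dd {H : Type u} [Group H] [Fintype H] {b : Set (IrrCharacter H)} {μ : IrrCharacter H}
    (h : μ ∈ b) : reg p (μ : H → ℂ) = ∑ i, ((dd p b μ i : ℤ) : ℂ) • ph p b i := by
  conv_lhs => rw [ph_expand (reg_mem_Lam (p := p) h)]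
  refine Finset.sum_congr rfl fun i _ => ?_
  unfold dd
  rw [dif_pos h]

/-- the generalised decomposition numbers -/
noncomputable def yy (p : ℕ) [Fact p.Prime] (x : G) [Fintype (Subgroup.centralizer ({x} : Set G))]
    (b : Set (IrrCharacter (Subgroup.centralizer ({x} : Set G)))) (χ : IrrCharacter G)
    (i : Fin (rk p b)) : ℂ :=
  ∑ μ : IrrCharacter (Subgroup.centralizer ({x} : Set G)), ind b μ *
    (classInner (th x (χ : G → ℂ)) (μ : Subgroup.centralizer ({x} : Set G) → ℂ) * (dd p b μ i : ℂ))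

theorem yy_mem (hxn : x ^ (p ^ n) = 1) (χ : IrrCharacter G) (i : Fin (rk p b)) :
    yy p x b χ i ∈ Op p n :=
  sum_mem fun μ _ => mul_mem (ind_mem b μ) (mul_mem (inner_th_mem hxn χ μ) (intCast_mem _ _))

theorem Af_yy (hM : IsPModular p M) (hb : IsPBlock M b) (χ : IrrCharacter G) :
    Af p x b (χ : G → ℂ) = ∑ i, yy p x b χ i • ph p b i := by
  classical
  rw [Af_sum hM hb]
  unfold yy
  have h1 : ∀ μ : IrrCharacter (Subgroup.centralizer ({x} : Set G)),
      (ind b μ * classInner (th x (χ : G → ℂ)) (μ : Subgroup.centralizer ({x} : Set G) → ℂ)) •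
        reg p (μ : Subgroup.centralizer ({x} : Set G) → ℂ) =
      ∑ i, (ind b μ * (classInner (th x (χ : G → ℂ)) (μ : Subgroup.centralizer ({x} : Set G) → ℂ) *
        (dd p b μ i : ℂ))) • ph p b i := by
    intro μ
    by_cases hμ : μ ∈ b
    · rw [reg_dd hμ, Finset.smul_sum]
      refine Finset.sum_congr rfl fun i _ => ?_
      rw [smul_smul, mul_assoc]
    · rw [ind_not hμ]
      simp
  rw [Finset.sum_congr rfl fun μ _ => h1 μ, Finset.sum_comm]
  refine Finset.sum_congr rfl fun i _ => ?_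
  rw [Finset.sum_smul]

theorem Mc_yy (hM : IsPModular p M) (hb : IsPBlock M b) (χ ψ : IrrCharacter G) :
    Mc p x b χ ψ = ∑ i, ∑ j, yy p x b χ i * conj (yy p x b ψ j) * (Qm hM hb i j : ℂ) := by
  unfold Mc Pc
  rw [Af_yy hM hb, Af_yy hM hb, inner_sum_left, Finset.mul_sum]
  refine Finset.sum_congr rfl fun i _ => ?_
  rw [CharBasic.inner_smul_left, CharBasic.inner_sum_right, Finset.mul_sum, Finset.mul_sum]
  refine Finset.sum_congr rfl fun j _ => ?_
  rw [CharBasic.inner_smul_right, ← Qm_spec hM hb]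
  unfold qp
  ring

theorem inner_ph_th (hM : IsPModular p M) (hb : IsPBlock M b) (i : Fin (rk p b)) (χ : IrrCharacter G) :
    ((p ^ blockDefect p b : ℕ) : ℂ) * classInner (ph p b i) (th x (χ : G → ℂ)) =
      ∑ j, (Qm hM hb i j : ℂ) * conj (yy p x b χ j) := by
  have h1 := Lam_props hM hb (ph_mem (p := p) (b := b) i)
  have h2 : classInner (ph p b i) (th x (χ : G → ℂ)) = classInner (ph p b i) (Af p x b (χ : G → ℂ)) := by
    unfold Af
    rw [← prj_adj h1.1 (reg_classFun (th_classFun (CharBasic.irr_classFun χ.2))), h1.2.2.1,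
      ← inner_reg_adj, h1.2.1]
  rw [h2, Af_yy hM hb, CharBasic.inner_sum_right, Finset.mul_sum]
  refine Finset.sum_congr rfl fun j _ => ?_
  rw [CharBasic.inner_smul_right, ← Qm_spec hM hb]
  unfold qp
  ring

/-- complex Gram matrix -/
noncomputable def Qc (hM : IsPModular p M) (hb : IsPBlock M b) : Matrix (Fin (rk p b)) (Fin (rk p b)) ℂ :=
  Matrix.of fun i j => (Qm hM hb i j : ℂ)

/-- the matrix of column products -/
noncomputable def Cc (p : ℕ) [Fact p.Prime] (x : G) [Fintype (Subgroup.centralizer ({x} : Set G))]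
    (b : Set (IrrCharacter (Subgroup.centralizer ({x} : Set G)))) :
    Matrix (Fin (rk p b)) (Fin (rk p b)) ℂ :=
  Matrix.of fun i j => ∑ χ : IrrCharacter G, conj (yy p x b χ i) * yy p x b χ j

theorem Qc_det (hM : IsPModular p M) (hb : IsPBlock M b) : IsUnit (Qc hM hb).det := by
  have h1 : Matrix.det ((Matrix.of (Qm hM hb)).map (Int.cast : ℤ → ℂ)) =
      ((Matrix.det (Matrix.of (Qm hM hb)) : ℤ) : ℂ) := by
    have := (Int.castRingHom ℂ).map_det (Matrix.of (Qm hM hb))
    exact this.symm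
  have h2 : Qc hM hb = (Matrix.of (Qm hM hb)).map (Int.cast : ℤ → ℂ) := rfl
  rw [h2, h1]
  exact IsUnit.mk0 _ (by exact_mod_cast Qm_det hM hb)

theorem QCQ (hM : IsPModular p M) (hx : ∃ k : ℕ, orderOf x = p ^ k) (hb : IsPBlock M b) :
    Qc hM hb * Cc p x b * Qc hM hb = ((p ^ blockDefect p b : ℕ) : ℂ) • Qc hM hb := by
  classical
  funext i i'
  have h0 := lift_inner (a := ph p b i) (a' := ph p b i') hx (Lam_props hM hb (ph_mem i)).1
    (fun c hc => by rw [← (Lam_props hM hb (ph_mem (p := p) (b := b) i)).2.1, reg_not hc])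
    (fun c hc => by rw [← (Lam_props hM hb (ph_mem (p := p) (b := b) i')).2.1, reg_not hc])
  have h1 : ((p ^ blockDefect p b : ℕ) : ℂ) * (Qm hM hb i i' : ℂ) =
      ∑ χ : IrrCharacter G, (((p ^ blockDefect p b : ℕ) : ℂ) * classInner (ph p b i) (th x (χ : G → ℂ))) *
        conj (((p ^ blockDefect p b : ℕ) : ℂ) * classInner (ph p b i') (th x (χ : G → ℂ))) := by
    rw [← Qm_spec hM hb]
    unfold qp
    rw [← h0, Finset.mul_sum, Finset.mul_sum]
    refine Finset.sum_congr rfl fun χ _ => ?_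
    rw [map_mul, Complex.conj_natCast]; ring
  change (Qc hM hb * Cc p x b * Qc hM hb) i i' = ((p ^ blockDefect p b : ℕ) : ℂ) * (Qm hM hb i i' : ℂ)
  rw [h1]
  have h2 : ∀ χ : IrrCharacter G, (((p ^ blockDefect p b : ℕ) : ℂ) * classInner (ph p b i) (th x (χ : G → ℂ))) *
        conj (((p ^ blockDefect p b : ℕ) : ℂ) * classInner (ph p b i') (th x (χ : G → ℂ))) =
      ∑ k, ∑ j, (Qm hM hb i j : ℂ) * (conj (yy p x b χ j) * yy p x b χ k) * (Qm hM hb k i' : ℂ) := by
    intro χ
    rw [inner_ph_th hM hb, inner_ph_th hM hb, map_sum, Finset.mul_sum]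
    refine Finset.sum_congr rfl fun k _ => ?_
    rw [map_mul, Complex.conj_conj, Finset.sum_mul]
    refine Finset.sum_congr rfl fun j _ => ?_
    rw [Qm_symm hM hb i' k, show conj ((Qm hM hb k i' : ℤ) : ℂ) = (Qm hM hb k i' : ℂ) from
        map_intCast _ _]
    ring
  rw [Finset.sum_congr rfl fun χ _ => h2 χ, Finset.sum_comm]
  rw [Matrix.mul_apply]
  refine Finset.sum_congr rfl fun k _ => ?_
  rw [Matrix.mul_apply, Finset.sum_mul, Finset.sum_comm]
  refine Finset.sum_congr rfl fun j _ => ?_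
  unfold Qc Cc
  simp only [Matrix.of_apply]
  rw [Finset.mul_sum, Finset.sum_mul]

theorem QC (hM : IsPModular p M) (hx : ∃ k : ℕ, orderOf x = p ^ k) (hb : IsPBlock M b) :
    Qc hM hb * Cc p x b = ((p ^ blockDefect p b : ℕ) : ℂ) • 1 := by
  have h1 := QCQ (x := x) hM hx hb
  have h2 := Qc_det hM hb
  calc Qc hM hb * Cc p x b = (Qc hM hb * Cc p x b * Qc hM hb) * (Qc hM hb)⁻¹ := by
        rw [Matrix.mul_assoc, Matrix.mul_nonsing_inv _ h2, Matrix.mul_one]
    _ = _ := by rw [h1, Matrix.smul_mul, Matrix.mul_nonsing_inv _ h2]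

theorem Cc_int (hM : IsPModular p M) (hx : ∃ k : ℕ, orderOf x = p ^ k) (hb : IsPBlock M b)
    (i j : Fin (rk p b)) : ∃ m : ℤ, Cc p x b i j = m := by
  classical
  obtain ⟨k, hk⟩ := hx
  have hx : ∃ k : ℕ, orderOf x = p ^ k := ⟨k, hk⟩
  have hxn : x ^ (p ^ k) = 1 := by rw [← hk, pow_orderOf_eq_one]
  apply GalChar.exists_int_of_fixed
  · unfold Cc
    simp only [Matrix.of_apply]
    exact Op_isIntegral (sum_mem fun χ _ => mul_mem (conj_mem (yy_mem hxn χ i)) (yy_mem hxn χ j))
  · intro σ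
    have h1 := QC (x := x) hM hx hb
    have h2 : Qc hM hb * (Cc p x b).map σ = ((p ^ blockDefect p b : ℕ) : ℂ) • 1 := by
      have h3 := congrArg (fun A : Matrix (Fin (rk p b)) (Fin (rk p b)) ℂ => A.map σ) h1
      have h4 : (Qc hM hb * Cc p x b).map σ = (Qc hM hb).map σ * (Cc p x b).map σ :=
        Matrix.map_mul (f := (σ : ℂ →+* ℂ))
      have h5 : (Qc hM hb).map σ = Qc hM hb := by
        funext i j
        change σ (Qm hM hb i j : ℂ) = (Qm hM hb i j : ℂ)
        exact map_intCast σ _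
      have h6 : (((p ^ blockDefect p b : ℕ) : ℂ) • (1 : Matrix (Fin (rk p b)) (Fin (rk p b)) ℂ)).map σ =
          ((p ^ blockDefect p b : ℕ) : ℂ) • 1 := by
        funext i j
        change σ (((p ^ blockDefect p b : ℕ) : ℂ) * (1 : Matrix (Fin (rk p b)) (Fin (rk p b)) ℂ) i j) =
          ((p ^ blockDefect p b : ℕ) : ℂ) * (1 : Matrix (Fin (rk p b)) (Fin (rk p b)) ℂ) i j
        rw [map_mul, map_natCast, Matrix.one_apply]
        split_ifs
        · rw [map_one]
        · rw [map_zero]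
      rw [h4, h5, h6] at h3
      exact h3
    have h3 : (Cc p x b).map σ = Cc p x b := by
      have h4 := Qc_det hM hb
      calc (Cc p x b).map σ = (Qc hM hb)⁻¹ * (Qc hM hb * (Cc p x b).map σ) := by
            rw [← Matrix.mul_assoc, Matrix.nonsing_inv_mul _ h4, Matrix.one_mul]
        _ = (Qc hM hb)⁻¹ * (Qc hM hb * Cc p x b) := by rw [h2, h1]
        _ = Cc p x b := by rw [← Matrix.mul_assoc, Matrix.nonsing_inv_mul _ h4, Matrix.one_mul]
    exact congrFun (congrFun h3 i) j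

/-- minors of the Gram matrix are divisible by `p` -/
theorem Qm_minor (hM : IsPModular p M) (hb : IsPBlock M b) (i i' j j' : Fin (rk p b)) :
    (p : ℤ) ∣ Qm hM hb i j * Qm hM hb i' j' - Qm hM hb i j' * Qm hM hb i' j := by
  haveI := LocR.isPrime hM
  have hp := LocR.isPrime hM
  obtain ⟨μ₀, hμ₀⟩ := block_nonempty hp hb
  obtain ⟨w, hw, h1⟩ := qp_rank_one hM hb hμ₀ (ph_mem (p := p) (b := b) j)
  obtain ⟨w', hw', h1'⟩ := qp_rank_one hM hb hμ₀ (ph_mem (p := p) (b := b) j')
  rw [← LocR.memI_intCast_iff hM]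
  set c := omg (μ₀ : Subgroup.centralizer ({x} : Set G) → ℂ) (fun c => ph p b i c⁻¹) with hc
  set c' := omg (μ₀ : Subgroup.centralizer ({x} : Set G) → ℂ) (fun c => ph p b i' c⁻¹) with hc'
  have e1 := h1 _ (ph_mem i)
  have e2 := h1 _ (ph_mem i')
  have e3 := h1' _ (ph_mem i)
  have e4 := h1' _ (ph_mem i')
  rw [Qm_spec hM hb] at e1 e2 e3 e4
  have hR : ∀ i j, MemLocalRing M ((Qm hM hb i j : ℤ) : ℂ) := fun i j => LocR.memR_intCast _
  have hcR : MemLocalRing M (c * w) := by
    have := LocR.memR_sub (hR i j) (LocR.memR_of_memI e1)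
    rwa [sub_sub_cancel] at this
  have hcR' : MemLocalRing M (c * w') := by
    have := LocR.memR_sub (hR i j') (LocR.memR_of_memI e3)
    rwa [sub_sub_cancel] at this
  have h2 : ((Qm hM hb i j * Qm hM hb i' j' - Qm hM hb i j' * Qm hM hb i' j : ℤ) : ℂ) =
      ((Qm hM hb i j : ℂ) - c * w) * (Qm hM hb i' j' : ℂ) + c * w * ((Qm hM hb i' j' : ℂ) - c' * w') -
      (((Qm hM hb i j' : ℂ) - c * w') * (Qm hM hb i' j : ℂ) + c * w' * ((Qm hM hb i' j : ℂ) - c' * w)) := by
    push_cast; ring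
  rw [h2]
  exact LocR.memI_sub
    (LocR.memI_add (LocR.memI_mul_right e1 (hR _ _)) (LocR.memI_mul_left hcR e4))
    (LocR.memI_add (LocR.memI_mul_right e3 (hR _ _)) (LocR.memI_mul_left hcR' e2))

end CfsgLib.Ct
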