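import Mathlib
import Cfsg.Agent.EqBase
import Cfsg.Agent.LibCt10

/-!
# Major subsections of rank at most two: S4539 (helper17)
-/

set_option autoImplicit false
set_option linter.unusedSectionVars false
set_option linter.style.haveILetI false
set_option linter.unusedSimpArgs false
set_option linter.unusedVariables false

namespace CfsgLib.Ct

open CfsgLib.CharInt hiding irr_isCharacter irr_classFun irr_one_ne_zero schur_scalar
open Cfsg CfsgLib.CharInt2 CfsgLib.CharBasic CfsgLib.BlockR CfsgLib.BlockCore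
  CfsgLib.BlockIdem CfsgLib.BlockIdeal CfsgLib.BlockConj CfsgLib.BlockBrauer CfsgLib.BlockInd
  CfsgLib.BlockFMT CfsgLib.BlockFMT2 CfsgLib.PLocalInd CfsgLib.BlockOrth CfsgLib.BlockDefect
  CfsgLib.BlockReg CfsgLib.BlockReg2 CfsgLib.BlockCount CfsgLib.BlockCount2 CfsgLib.BlockQP
  CfsgLib.BlockCov3 CfsgLib.BlockCov4 CfsgLib.BlockLoc CfsgLib.BlockM CfsgLib.BlockH
  CfsgLib.BlockH2 CfsgLib.CharNorm CfsgLib.BlockSec CfsgLib.BlockSec3
open scoped ComplexConjugate Pointwise

universe u

variable {M : Ideal AlgInt} {p : ℕ} [hpF : Fact p.Prime] {G : Type u} [Group G] [Fintype G]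
variable {x : G} [hFC : Fintype (Subgroup.centralizer ({x} : Set G))]
variable {b : Set (IrrCharacter (Subgroup.centralizer ({x} : Set G)))} {n : ℕ}

/-- data of a subsection of rank two -/
structure RD (p : ℕ) [Fact p.Prime] (x : G) [Fintype (Subgroup.centralizer ({x} : Set G))]
    (b : Set (IrrCharacter (Subgroup.centralizer ({x} : Set G)))) (n : ℕ) (al be ga A H E : ℤ)
    (y1 y2 : IrrCharacter G → ℂ) : Prop where
  m1 : ∀ χ, y1 χ ∈ Op p n
  m2 : ∀ χ, y2 χ ∈ Op p n
  s11 : ∑ χ, y1 χ * conj (y1 χ) = al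
  s12 : ∑ χ, y1 χ * conj (y2 χ) = be
  s22 : ∑ χ, y2 χ * conj (y2 χ) = ga
  mc : ∀ χ ψ, Mc p x b χ ψ = A * (y1 χ * conj (y1 ψ)) -
    H * (y1 χ * conj (y2 ψ) + y2 χ * conj (y1 ψ)) + E * (y2 χ * conj (y2 ψ))
  r1 : A * al - H * be = p ^ blockDefect p b
  r2 : A * be = H * ga
  r3 : E * be = H * al
  r4 : E * ga - H * be = p ^ blockDefect p b
  dv : (p : ℤ) ∣ A * E - H * H

section RDs

variable {al be ga A H E : ℤ} {y1 y2 : IrrCharacter G → ℂ}

theorem cint (a : ℤ) : conj ((a : ℤ) : ℂ) = (a : ℂ) := map_intCast _ _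

theorem RD.s21 (h : RD p x b n al be ga A H E y1 y2) : ∑ χ, y2 χ * conj (y1 χ) = be := by
  have h1 := congrArg conj h.s12
  rw [cint, map_sum] at h1
  rw [← h1]
  refine Finset.sum_congr rfl fun χ _ => ?_
  rw [map_mul, Complex.conj_conj, mul_comm]

theorem RD.shift (h : RD p x b n al be ga A H E y1 y2) (s : ℤ) :
    RD p x b n al (be - s * al) (ga - 2 * s * be + s * s * al) (A - 2 * s * H + s * s * E) (H - s * E) E
      y1 (fun χ => y2 χ - s * y1 χ) where
  m1 := h.m1
  m2 := fun χ => sub_mem (h.m2 χ) (mul_mem (intCast_mem _ _) (h.m1 χ))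
  s11 := h.s11
  s12 := by
    have h1 : ∀ χ : IrrCharacter G, y1 χ * conj (y2 χ - s * y1 χ) =
        y1 χ * conj (y2 χ) - s * (y1 χ * conj (y1 χ)) := by
      intro χ
      rw [map_sub, map_mul, cint]; ring
    rw [Finset.sum_congr rfl fun χ _ => h1 χ, Finset.sum_sub_distrib, ← Finset.mul_sum, h.s11, h.s12]
    push_cast; ring
  s22 := by
    have h1 : ∀ χ : IrrCharacter G, (y2 χ - s * y1 χ) * conj (y2 χ - s * y1 χ) =
        y2 χ * conj (y2 χ) - s * (y1 χ * conj (y2 χ)) - s * (y2 χ * conj (y1 χ)) +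
          s * s * (y1 χ * conj (y1 χ)) := by
      intro χ
      rw [map_sub, map_mul, cint]; ring
    rw [Finset.sum_congr rfl fun χ _ => h1 χ, Finset.sum_add_distrib, Finset.sum_sub_distrib,
      Finset.sum_sub_distrib, ← Finset.mul_sum, ← Finset.mul_sum, ← Finset.mul_sum, h.s11, h.s12,
      h.s22, h.s21]
    push_cast; ring
  mc := by
    intro χ ψ
    rw [h.mc, map_sub, map_mul, cint]
    push_cast; ring
  r1 := by linear_combination h.r1 + s * h.r3
  r2 := by linear_combination h.r2 - s * h.r1 + s * h.r4 - s * s * h.r3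
  r3 := by linear_combination h.r3
  r4 := by linear_combination h.r4 - s * h.r3
  dv := by
    have h1 : (A - 2 * s * H + s * s * E) * E - (H - s * E) * (H - s * E) = A * E - H * H := by ring
    rw [h1]; exact h.dv

theorem RD.swap (h : RD p x b n al be ga A H E y1 y2) : RD p x b n ga be al E H A y2 y1 where
  m1 := h.m2
  m2 := h.m1
  s11 := h.s22
  s12 := h.s21
  s22 := h.s11
  mc := by intro χ ψ; rw [h.mc]; ring
  r1 := h.r4
  r2 := h.r3
  r3 := h.r2
  r4 := h.r1
  dv := by rw [mul_comm E A]; exact h.dv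

theorem RD.neg (h : RD p x b n al be ga A H E y1 y2) :
    RD p x b n al (-be) ga A (-H) E y1 (fun χ => -y2 χ) where
  m1 := h.m1
  m2 := fun χ => neg_mem (h.m2 χ)
  s11 := h.s11
  s12 := by
    have h1 : ∀ χ : IrrCharacter G, y1 χ * conj (-y2 χ) = -(y1 χ * conj (y2 χ)) := by
      intro χ; rw [map_neg]; ring
    rw [Finset.sum_congr rfl fun χ _ => h1 χ, Finset.sum_neg_distrib, h.s12]
    push_cast; ring
  s22 := by
    have h1 : ∀ χ : IrrCharacter G, (-y2 χ) * conj (-y2 χ) = (y2 χ * conj (y2 χ)) := by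
      intro χ; rw [map_neg]; ring
    rw [Finset.sum_congr rfl fun χ _ => h1 χ, h.s22]
  mc := by intro χ ψ; rw [h.mc, map_neg]; push_cast; ring
  r1 := by linear_combination h.r1
  r2 := by linear_combination -h.r2
  r3 := by linear_combination -h.r3
  r4 := by linear_combination h.r4
  dv := by
    have h1 : A * E - -H * -H = A * E - H * H := by ring
    rw [h1]; exact h.dv

theorem sum_nonneg_int {y : IrrCharacter G → ℂ} {a : ℤ} (h : ∑ χ, y χ * conj (y χ) = a) : 0 ≤ a := by
  have h1 : ((∑ χ : IrrCharacter G, ‖y χ‖ ^ 2 : ℝ) : ℂ) = ((a : ℝ) : ℂ) := by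
    push_cast
    rw [← h]
    refine Finset.sum_congr rfl fun χ _ => ?_
    rw [Complex.mul_conj, Complex.normSq_eq_norm_sq]
    push_cast; rfl
  have h2 : (∑ χ : IrrCharacter G, ‖y χ‖ ^ 2 : ℝ) = a := by exact_mod_cast h1
  have h3 : (0 : ℝ) ≤ ∑ χ : IrrCharacter G, ‖y χ‖ ^ 2 := Finset.sum_nonneg fun _ _ => by positivity
  rw [h2] at h3
  exact_mod_cast h3

theorem RD.det (h : RD p x b n al be ga A H E y1 y2) :
    (A * E - H * H) * (al * ga - be * be) = (p : ℤ) ^ blockDefect p b * p ^ blockDefect p b := by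
  linear_combination (E * ga - H * be) * h.r1 + (p : ℤ) ^ blockDefect p b * h.r4 +
    (H * al - E * be) * h.r2

theorem RD.pos (h : RD p x b n al be ga A H E y1 y2) :
    0 < al ∧ 0 < ga ∧ 0 < al * ga - be * be := by
  have hpz : (0 : ℤ) < (p : ℤ) ^ blockDefect p b := by
    have : (0 : ℤ) < p := by exact_mod_cast (Fact.out : p.Prime).pos
    positivity
  have hdet := h.det
  have hne : al * ga - be * be ≠ 0 := by
    intro h0
    rw [h0, mul_zero] at hdet
    have : (0 : ℤ) < (p : ℤ) ^ blockDefect p b * p ^ blockDefect p b := mul_pos hpz hpz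
    omega
  have ha := sum_nonneg_int h.s11
  have hg := sum_nonneg_int h.s22
  have hs : ∀ s t : ℤ, 0 ≤ s * s * al + 2 * s * t * be + t * t * ga := by
    intro s t
    refine sum_nonneg_int (y := fun χ => s * y1 χ + t * y2 χ) ?_
    have h1 : ∀ χ : IrrCharacter G, (s * y1 χ + t * y2 χ) * conj (s * y1 χ + t * y2 χ) =
        s * s * (y1 χ * conj (y1 χ)) + s * t * (y1 χ * conj (y2 χ)) + s * t * (y2 χ * conj (y1 χ)) +
          t * t * (y2 χ * conj (y2 χ)) := by
      intro χ
      rw [map_add, map_mul, map_mul, cint, cint]; ring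
    rw [Finset.sum_congr rfl fun χ _ => h1 χ, Finset.sum_add_distrib, Finset.sum_add_distrib,
      Finset.sum_add_distrib, ← Finset.mul_sum, ← Finset.mul_sum, ← Finset.mul_sum,
      ← Finset.mul_sum, h.s11, h.s12, h.s22, h.s21]
    push_cast; ring
  have hga : 0 < ga := by
    rcases hg.lt_or_eq with h1 | h1
    · exact h1
    · exfalso
      have h2 := hs be (-(al + 1))
      have h3 := hs 0 1
      have h4 : be = 0 := by
        by_contra h5
        have h6 : 0 < be * be := mul_self_pos.mpr h5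
        nlinarith
      apply hne
      rw [← h1, h4]; ring
  have hal : 0 < al := by
    rcases ha.lt_or_eq with h1 | h1
    · exact h1
    · exfalso
      have h2 := hs (-(ga + 1)) be
      have h4 : be = 0 := by
        by_contra h5
        have h6 : 0 < be * be := mul_self_pos.mpr h5
        nlinarith
      apply hne
      rw [← h1, h4]; ring
  refine ⟨hal, hga, ?_⟩
  have h1 := hs ga (-be)
  have h2 : ga * ga * al + 2 * ga * -be * be + -be * -be * ga = ga * (al * ga - be * be) := by ring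
  rw [h2] at h1
  have h3 : 0 ≤ al * ga - be * be := by
    by_contra h4
    push Not at h4
    nlinarith
  omega

/-- Gauss reduction -/
theorem RD.reduce : ∀ (N : ℕ) (al be ga A H E : ℤ) (y1 y2 : IrrCharacter G → ℂ),
    RD p x b n al be ga A H E y1 y2 → al + ga ≤ N →
    ∃ (al be ga A H E : ℤ) (y1 y2 : IrrCharacter G → ℂ), RD p x b n al be ga A H E y1 y2 ∧
      0 ≤ be ∧ 2 * be ≤ al ∧ al ≤ ga := by
  intro N
  induction N with
  | zero =>
    intro al be ga A H E y1 y2 h hN
    have := h.pos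
    push_cast at hN
    omega
  | succ N ih =>
    intro al be ga A H E y1 y2 h hN
    push_cast at hN
    have hpos := h.pos
    have hstep : ∀ {al be ga A H E : ℤ} {y1 y2 : IrrCharacter G → ℂ}, RD p x b n al be ga A H E y1 y2 →
        al + ga ≤ N + 1 → al < 2 * |be| → ∃ (al be ga A H E : ℤ) (y1 y2 : IrrCharacter G → ℂ),
        RD p x b n al be ga A H E y1 y2 ∧ 0 ≤ be ∧ 2 * be ≤ al ∧ al ≤ ga := by
      intro al be ga A H E y1 y2 h hN hlt
      have hpos := h.pos
      rcases le_total 0 be with hb | hb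
      · rw [abs_of_nonneg hb] at hlt
        have h1 := h.shift 1
        refine ih _ _ _ _ _ _ _ _ h1 ?_
        linarith
      · rw [abs_of_nonpos hb] at hlt
        have h1 := h.shift (-1)
        refine ih _ _ _ _ _ _ _ _ h1 ?_
        linarith
    by_cases h1 : al < 2 * |be|
    · exact hstep h hN h1
    by_cases h2 : ga < 2 * |be|
    · exact hstep h.swap (by linarith) h2
    push Not at h1 h2
    -- make `be` nonnegative
    have hfin : ∀ {al be ga A H E : ℤ} {y1 y2 : IrrCharacter G → ℂ}, RD p x b n al be ga A H E y1 y2 →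
        2 * |be| ≤ al → al ≤ ga → ∃ (al be ga A H E : ℤ) (y1 y2 : IrrCharacter G → ℂ),
        RD p x b n al be ga A H E y1 y2 ∧ 0 ≤ be ∧ 2 * be ≤ al ∧ al ≤ ga := by
      intro al be ga A H E y1 y2 h hle hag
      rcases le_total 0 be with hb | hb
      · rw [abs_of_nonneg hb] at hle
        exact ⟨al, be, ga, A, H, E, y1, y2, h, hb, hle, hag⟩
      · rw [abs_of_nonpos hb] at hle
        exact ⟨al, -be, ga, A, -H, E, y1, _, h.neg, by omega, by omega, hag⟩
    rcases le_total al ga with h3 | h3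
    · exact hfin h h1 h3
    · exact hfin h.swap h2 h3

/-- conjugated sums -/
theorem sum_sq_eq {y : IrrCharacter G → ℂ} (hy : ∀ χ, y χ ∈ Op p n) {a : ℤ}
    (h : ∑ χ, y χ * conj (y χ) = a) : ∑ χ, sq p n (y χ) = NN p n * a := by
  unfold sq NN
  rw [Finset.sum_comm]
  have h1 : ∀ k : (ZMod (p ^ n))ˣ, ∑ χ : IrrCharacter G, ‖sg p n k (y χ)‖ ^ 2 = (a : ℝ) := by
    intro k
    have h2 := congrArg (sg p n k) h
    rw [map_sum, map_intCast] at h2
    have h3 : ((∑ χ : IrrCharacter G, ‖sg p n k (y χ)‖ ^ 2 : ℝ) : ℂ) = ((a : ℝ) : ℂ) := by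
      push_cast
      rw [← h2]
      refine Finset.sum_congr rfl fun χ _ => ?_
      rw [map_mul, sg_conj _ (hy χ), Complex.mul_conj, Complex.normSq_eq_norm_sq]
      push_cast; rfl
    exact_mod_cast h3
  rw [Finset.sum_congr rfl fun k _ => h1 k, Finset.sum_const, Finset.card_univ, nsmul_eq_mul]

theorem sq_ge {z : ℂ} (hz : z ∈ Op p n) (h0 : z ≠ 0) : NN p n ≤ sq p n z := card_le p n hz h0

end RDs

end CfsgLib.Ct
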