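import Mathlib
import Cfsg.Agent.EqBase
import Cfsg.Agent.LibCt11

/-!
# Major subsections of rank at most two: the bound (helper17)
-/

set_option autoImplicit false
set_option linter.unusedSectionVars false
set_option linter.style.haveILetI false
set_option linter.unusedSimpArgs false
set_option linter.unusedVariables false

namespace CfsgLib.Ct

open CfsgLib.CharInt hiding irr_isCharacter irr_classFun irr_one_ne_zero schur_scalar
open Cfsg CfsgLib.CharInt2 CfsgLib.CharBasic CfsgLib.BlockR CfsgLib.BlockCore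
  CfsgLib.BlockIdem CfsgLib.BlockIdeal CfsgLib.BlockConj CfsgLib.BlockBrauer CfsgLib.BlockInd
  CfsgLib.BlockFMT CfsgLib.BlockFMT2 CfsgLib.PLocalInd CfsgLib.BlockOrth CfsgLib.BlockDefect
  CfsgLib.BlockReg CfsgLib.BlockReg2 CfsgLib.BlockCount CfsgLib.BlockCount2 CfsgLib.BlockQP
  CfsgLib.BlockCov3 CfsgLib.BlockCov4 CfsgLib.BlockLoc CfsgLib.BlockM CfsgLib.BlockH
  CfsgLib.BlockH2 CfsgLib.CharNorm CfsgLib.BlockSec CfsgLib.BlockSec3
open scoped ComplexConjugate Pointwise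

universe u

variable {M : Ideal AlgInt} {p : ℕ} [hpF : Fact p.Prime] {G : Type u} [Group G] [Fintype G]
variable {x : G} [hFC : Fintype (Subgroup.centralizer ({x} : Set G))]
variable {b : Set (IrrCharacter (Subgroup.centralizer ({x} : Set G)))} {n : ℕ}

theorem card_le_int' (hM : IsPModular p M) (hn : 0 < n) {y : IrrCharacter G → ℂ}
    (hy : ∀ χ, y χ ∈ Op p n) {a : ℤ} (h : ∑ χ, y χ * conj (y χ) = a) (S : Finset (IrrCharacter G))
    (w : IrrCharacter G → ℕ) (hS : ∀ χ ∈ S, y χ ≠ 0 ∧ MemLocalRing M (y χ / (p : ℂ) ^ w χ)) :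
    ∑ χ ∈ S, ((p : ℤ) ^ w χ) ^ 2 ≤ a := by
  have h1 := sum_sq_eq hy h
  have h3 := NN_pos p n
  have h2 : NN p n * ∑ χ ∈ S, ((p : ℝ) ^ w χ) ^ 2 ≤ NN p n * a := by
    rw [← h1, Finset.mul_sum]
    calc ∑ χ ∈ S, NN p n * ((p : ℝ) ^ w χ) ^ 2
      _ ≤ ∑ χ ∈ S, sq p n (y χ) := Finset.sum_le_sum fun χ hχ =>
          card_le_div hM hn (hy χ) (hS χ hχ).1 (hS χ hχ).2
      _ ≤ ∑ χ, sq p n (y χ) := Finset.sum_le_sum_of_subset_of_nonneg (Finset.subset_univ _)
          fun _ _ _ => sq_nonneg' _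
  have h4 := le_of_mul_le_mul_left h2 h3
  exact_mod_cast h4

theorem card_le_int {y : IrrCharacter G → ℂ} (hy : ∀ χ, y χ ∈ Op p n) {a : ℤ}
    (h : ∑ χ, y χ * conj (y χ) = a) (S : Finset (IrrCharacter G)) (hS : ∀ χ ∈ S, y χ ≠ 0) :
    (S.card : ℤ) ≤ a := by
  have h1 := sum_sq_eq hy h
  have h3 := NN_pos p n
  have h2 : NN p n * (S.card : ℝ) ≤ NN p n * a := by
    rw [← h1]
    calc NN p n * (S.card : ℝ) = ∑ χ ∈ S, NN p n := by rw [Finset.sum_const, nsmul_eq_mul, mul_comm]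
      _ ≤ ∑ χ ∈ S, sq p n (y χ) := Finset.sum_le_sum fun χ hχ => sq_ge (hy χ) (hS χ hχ)
      _ ≤ ∑ χ, sq p n (y χ) := Finset.sum_le_sum_of_subset_of_nonneg (Finset.subset_univ _)
          fun _ _ _ => sq_nonneg' _
  have h4 := le_of_mul_le_mul_left h2 h3
  exact_mod_cast h4

theorem card_le_three {y1 y2 y3 : IrrCharacter G → ℂ} (hy1 : ∀ χ, y1 χ ∈ Op p n)
    (hy2 : ∀ χ, y2 χ ∈ Op p n) (hy3 : ∀ χ, y3 χ ∈ Op p n) {a1 a2 a3 : ℤ}
    (h1 : ∑ χ, y1 χ * conj (y1 χ) = a1) (h2 : ∑ χ, y2 χ * conj (y2 χ) = a2)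
    (h3 : ∑ χ, y3 χ * conj (y3 χ) = a3) (S : Finset (IrrCharacter G))
    (hS : ∀ χ ∈ S, (y1 χ ≠ 0 ∧ y2 χ ≠ 0) ∨ (y1 χ ≠ 0 ∧ y3 χ ≠ 0) ∨ (y2 χ ≠ 0 ∧ y3 χ ≠ 0)) :
    2 * (S.card : ℤ) ≤ a1 + a2 + a3 := by
  have e1 := sum_sq_eq hy1 h1
  have e2 := sum_sq_eq hy2 h2
  have e3 := sum_sq_eq hy3 h3
  have hN := NN_pos p n
  have h5 : NN p n * (2 * (S.card : ℝ)) ≤ NN p n * (a1 + a2 + a3) := by
    calc NN p n * (2 * (S.card : ℝ)) = ∑ χ ∈ S, (NN p n + NN p n) := by
          rw [Finset.sum_const, nsmul_eq_mul]; ring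
      _ ≤ ∑ χ ∈ S, (sq p n (y1 χ) + sq p n (y2 χ) + sq p n (y3 χ)) := by
          refine Finset.sum_le_sum fun χ hχ => ?_
          have f1 := sq_nonneg' (p := p) (n := n) (y1 χ)
          have f2 := sq_nonneg' (p := p) (n := n) (y2 χ)
          have f3 := sq_nonneg' (p := p) (n := n) (y3 χ)
          rcases hS χ hχ with ⟨g1, g2⟩ | ⟨g1, g2⟩ | ⟨g1, g2⟩
          · linarith [sq_ge (hy1 χ) g1, sq_ge (hy2 χ) g2]
          · linarith [sq_ge (hy1 χ) g1, sq_ge (hy3 χ) g2]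
          · linarith [sq_ge (hy2 χ) g1, sq_ge (hy3 χ) g2]
      _ ≤ ∑ χ, (sq p n (y1 χ) + sq p n (y2 χ) + sq p n (y3 χ)) :=
          Finset.sum_le_sum_of_subset_of_nonneg (Finset.subset_univ _)
            fun χ _ _ => add_nonneg (add_nonneg (sq_nonneg' _) (sq_nonneg' _)) (sq_nonneg' _)
      _ = _ := by
          rw [Finset.sum_add_distrib, Finset.sum_add_distrib, e1, e2, e3]; ring
  have h6 := le_of_mul_le_mul_left h5 hN
  exact_mod_cast h6

set_option maxHeartbeats 2000000 in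
theorem RD.bound (hM : IsPModular p M) (hx : ∃ k : ℕ, orderOf x = p ^ k) (hn : 0 < n)
    {B : Set (IrrCharacter G)} (hb : IsInducedBlock M (Subgroup.centralizer ({x} : Set G)) b B)
    (hd : blockDefect p b = blockDefect p B) (BF : Finset (IrrCharacter G)) (hBF : ∀ χ, χ ∈ BF ↔ χ ∈ B)
    {al be ga A H E : ℤ} {y1 y2 : IrrCharacter G → ℂ} (h : RD p x b n al be ga A H E y1 y2)
    (hbe : 0 ≤ be) (hbe2 : 2 * be ≤ al) (hag : al ≤ ga) : (BF.card : ℤ) ≤ (p : ℤ) ^ blockDefect p b := by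
  classical
  haveI := LocR.isPrime hM
  have hp := LocR.isPrime hM
  have hpr : p.Prime := Fact.out
  have hp2 : (2 : ℤ) ≤ p := by exact_mod_cast hpr.two_le
  obtain ⟨hal, hga, hdet0⟩ := h.pos
  have hdet := h.det
  have r1 := h.r1
  have r2 := h.r2
  have r3 := h.r3
  have r4 := h.r4
  have dv := h.dv
  set q := blockDefect p b with hq
  have hPpos : (0 : ℤ) < (p : ℤ) ^ q := by positivity
  obtain ⟨ψ₀, hψ₀, h00⟩ := exists_height_zero hM hb.2.1
  have hψ00 := (height_zero_iff hM hb.2.1 hψ₀).mpr h00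
  set Δ := A * E - H * H with hΔ
  have e1 : al * Δ = (p : ℤ) ^ q * E := by rw [hΔ]; linear_combination E * r1 + H * r3
  have e2 : be * Δ = (p : ℤ) ^ q * H := by rw [hΔ]; linear_combination H * r4 + E * r2
  have e3 : ga * Δ = (p : ℤ) ^ q * A := by rw [hΔ]; linear_combination A * r4 + H * r2
  have hΔpos : 0 < Δ := by
    by_contra hc
    push Not at hc
    have h1 := mul_nonpos_of_nonpos_of_nonneg hc hdet0.le
    nlinarith [mul_pos hPpos hPpos]
  have hEpos : 0 < E := by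
    have h1 : 0 < (p : ℤ) ^ q * E := by rw [← e1]; exact mul_pos hal hΔpos
    exact (mul_pos_iff_of_pos_left hPpos).mp h1
  have hH0 : 0 ≤ H := by
    by_contra hc
    push Not at hc
    have h1 : (p : ℤ) ^ q * H < 0 := mul_neg_of_pos_of_neg hPpos hc
    have h2 := mul_nonneg hbe hΔpos.le
    linarith
  have hHE : 2 * H ≤ E := by
    have h1 : (2 * be) * Δ ≤ al * Δ := mul_le_mul_of_nonneg_right hbe2 hΔpos.le
    have h2 : (p : ℤ) ^ q * (2 * H) ≤ (p : ℤ) ^ q * E := by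
      rw [← e1]; linarith
    exact le_of_mul_le_mul_left h2 hPpos
  have hEA : E ≤ A := by
    have h1 : al * Δ ≤ ga * Δ := mul_le_mul_of_nonneg_right hag hΔpos.le
    rw [e1, e3] at h1
    exact le_of_mul_le_mul_left h1 hPpos
  -- not all divisible
  have hnd : ¬ ((p : ℤ) ∣ A ∧ (p : ℤ) ∣ H ∧ (p : ℤ) ∣ E) := by
    rintro ⟨d1, d2, d3⟩
    apply Mc_unit hM hx hb hψ₀ hψ₀ hψ00 hψ00
    rw [h.mc]
    have i1 := (LocR.memI_intCast_iff hM A).mpr d1
    have i2 := (LocR.memI_intCast_iff hM H).mpr d2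
    have i3 := (LocR.memI_intCast_iff hM E).mpr d3
    have g1 : ∀ χ, MemLocalRing M (y1 χ) := fun χ => LocR.memR_of_isIntegral (Op_isIntegral (h.m1 χ))
    have g2 : ∀ χ, MemLocalRing M (y2 χ) := fun χ => LocR.memR_of_isIntegral (Op_isIntegral (h.m2 χ))
    have g3 : ∀ χ, MemLocalRing M (conj (y1 χ)) :=
      fun χ => LocR.memR_of_isIntegral (Op_isIntegral (conj_mem (h.m1 χ)))
    have g4 : ∀ χ, MemLocalRing M (conj (y2 χ)) :=
      fun χ => LocR.memR_of_isIntegral (Op_isIntegral (conj_mem (h.m2 χ)))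
    exact LocR.memI_add (LocR.memI_sub (ideal_mul_right hp i1 (ring_mul hp (g1 _) (g3 _)))
      (ideal_mul_right hp i2 (ring_add hp (ring_mul hp (g1 _) (g4 _)) (ring_mul hp (g2 _) (g3 _)))))
      (ideal_mul_right hp i3 (ring_mul hp (g2 _) (g4 _)))
  obtain ⟨e, he⟩ : ∃ e : ℕ, Δ = (p : ℤ) ^ e := by
    have h1 : Δ ∣ (p : ℤ) ^ (q + q) := ⟨al * ga - be * be, by rw [pow_add]; exact hdet.symm⟩
    have h2 : Δ.natAbs ∣ p ^ (q + q) := by
      have h3 := Int.natAbs_dvd_natAbs.mpr h1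
      rw [Int.natAbs_pow, Int.natAbs_natCast] at h3
      exact h3
    obtain ⟨e, -, he⟩ := (Nat.dvd_prime_pow hpr).mp h2
    refine ⟨e, ?_⟩
    rw [← Int.natAbs_of_nonneg hΔpos.le, he]
    push_cast; rfl
  have he0 : e ≠ 0 := by
    rintro rfl
    rw [pow_zero] at he
    rw [he] at dv
    have := Int.le_of_dvd one_pos dv
    omega
  have heq : e ≤ q := by
    by_contra hc
    push Not at hc
    obtain ⟨c, rfl⟩ : ∃ c, e = q + (c + 1) := ⟨e - q - 1, by omega⟩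
    have hsp : Δ = (p : ℤ) ^ q * (p ^ c * p) := by rw [he, pow_add, pow_succ]
    have k1 : ∀ u v : ℤ, u * Δ = (p : ℤ) ^ q * v → (p : ℤ) ∣ v := by
      intro u v huv
      rw [hsp] at huv
      have h2 : (p : ℤ) ^ q * v = (p : ℤ) ^ q * (u * (p ^ c) * p) := by rw [← huv]; ring
      have h3 := mul_left_cancel₀ hPpos.ne' h2
      rw [h3]
      exact dvd_mul_left _ _
    exact hnd ⟨k1 _ _ e3, k1 _ _ e2, k1 _ _ e1⟩
  obtain ⟨f, hf⟩ : ∃ f, q = f + e := ⟨q - e, by omega⟩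
  have hPf : (p : ℤ) ^ q = p ^ f * Δ := by rw [hf, pow_add, he]
  have k1 : ∀ u v : ℤ, u * Δ = (p : ℤ) ^ q * v → u = (p : ℤ) ^ f * v := by
    intro u v huv
    rw [hPf] at huv
    have h2 : u * Δ = ((p : ℤ) ^ f * v) * Δ := by rw [huv]; ring
    exact mul_right_cancel₀ hΔpos.ne' h2
  have hal' := k1 _ _ e1
  have hbe' := k1 _ _ e2
  have hga' := k1 _ _ e3
  have hfpos : (0 : ℤ) < (p : ℤ) ^ f := by positivity
  have hnz : ∀ χ ∈ BF, ¬ (y1 χ = 0 ∧ y2 χ = 0) := by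
    rintro χ hχ ⟨z1, z2⟩
    apply Mc_ne_zero hM hx hb hd ((hBF χ).mp hχ) hψ₀ hψ00
    rw [h.mc, z1, z2]; ring
  by_cases hE : 2 ≤ E
  · -- main case
    have hs := h.shift 1
    have h3 := card_le_three h.m1 h.m2 hs.m2 h.s11 h.s22 hs.s22 BF (by
      intro χ hχ
      have h4 := hnz χ hχ
      by_cases z1 : y1 χ = 0
      · have z2 : y2 χ ≠ 0 := fun z => h4 ⟨z1, z⟩
        refine Or.inr (Or.inr ⟨z2, ?_⟩)
        rw [z1, mul_zero, sub_zero]; exact z2
      · by_cases z2 : y2 χ = 0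
        · refine Or.inr (Or.inl ⟨z1, ?_⟩)
          rw [z2, zero_sub]
          push_cast
          rw [one_mul]
          exact neg_ne_zero.mpr z1
        · exact Or.inl ⟨z1, z2⟩)
    have h4 : (BF.card : ℤ) ≤ al + ga - be := by linarith
    have h5 : al + ga - be = (p : ℤ) ^ f * (E + A - H) := by rw [hal', hbe', hga']; ring
    have h6 : E + A - H ≤ Δ := by
      rw [hΔ]
      rcases hH0.lt_or_eq with hH | hH
      · nlinarith
      · rw [← hH]; nlinarith
    rw [h5] at h4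
    rw [hPf]
    exact h4.trans (mul_le_mul_of_nonneg_left h6 hfpos.le)
  · -- degenerate case
    have hE1 : E = 1 := by omega
    have hH1 : H = 0 := by omega
    have hAΔ : A = Δ := by rw [hΔ, hE1, hH1]; ring
    have hgaP : ga = (p : ℤ) ^ q := by rw [hga', hPf, hAΔ]
    have halP : al = (p : ℤ) ^ f := by rw [hal', hE1, mul_one]
    have hmc : ∀ χ ψ, Mc p x b χ ψ = A * (y1 χ * conj (y1 ψ)) + y2 χ * conj (y2 ψ) := by
      intro χ ψ
      rw [h.mc, hE1, hH1]; push_cast; ring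
    have hdA : (p : ℤ) ∣ A := by rw [hAΔ]; exact dv
    have g1 : ∀ χ, MemLocalRing M (y1 χ) := fun χ => LocR.memR_of_isIntegral (Op_isIntegral (h.m1 χ))
    have g2 : ∀ χ, MemLocalRing M (y2 χ) := fun χ => LocR.memR_of_isIntegral (Op_isIntegral (h.m2 χ))
    have g3 : ∀ χ, MemLocalRing M (conj (y1 χ)) :=
      fun χ => LocR.memR_of_isIntegral (Op_isIntegral (conj_mem (h.m1 χ)))
    have g4 : ∀ χ, MemLocalRing M (conj (y2 χ)) :=
      fun χ => LocR.memR_of_isIntegral (Op_isIntegral (conj_mem (h.m2 χ)))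
    have hun : ∀ ψ ∈ B, blockHeight p B (ψ : G → ℂ) = 0 →
        ¬ MemLocalIdeal M (y2 ψ) ∧ ¬ MemLocalIdeal M (conj (y2 ψ)) := by
      intro ψ hψ h0
      have i1 := (LocR.memI_intCast_iff hM A).mpr hdA
      constructor
      · intro hI
        apply Mc_unit hM hx hb hψ hψ h0 h0
        rw [hmc]
        exact LocR.memI_add (ideal_mul_right hp i1 (ring_mul hp (g1 _) (g3 _)))
          (ideal_mul_right hp hI (g4 _))
      · intro hI
        apply Mc_unit hM hx hb hψ hψ h0 h0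
        rw [hmc]
        exact LocR.memI_add (ideal_mul_right hp i1 (ring_mul hp (g1 _) (g3 _)))
          (ideal_mul_left hp (g2 _) hI)
    by_cases hZ : ∃ χ ∈ BF, y2 χ = 0
    · obtain ⟨χ₁, hχ₁, hz1⟩ := hZ
      set Z := BF.filter (fun χ : IrrCharacter G => y2 χ = 0) with hZdef
      set K := BF.filter (fun χ : IrrCharacter G => blockHeight p B (χ : G → ℂ) = 0) with hKdef
      set W := BF.filter (fun χ : IrrCharacter G => y2 χ ≠ 0 ∧ blockHeight p B (χ : G → ℂ) ≠ 0) with hWdef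
      have hy2K : ∀ χ ∈ K, y2 χ ≠ 0 := by
        intro χ hχ z
        obtain ⟨h1, h2⟩ := Finset.mem_filter.mp hχ
        exact (hun χ ((hBF χ).mp h1) h2).1 (by rw [z]; exact ideal_zero hp)
      have hy1K : ∀ χ ∈ K, y1 χ ≠ 0 := by
        intro χ hχ z
        obtain ⟨h1, h2⟩ := Finset.mem_filter.mp hχ
        apply Mc_ne_zero hM hx hb hd ((hBF χ₁).mp hχ₁) ((hBF χ).mp h1) h2
        rw [hmc, z, hz1, map_zero]; ring
      have hy1Z : ∀ χ ∈ Z, y1 χ ≠ 0 := by
        intro χ hχ z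
        obtain ⟨h1, h2⟩ := Finset.mem_filter.mp hχ
        exact hnz χ h1 ⟨z, h2⟩
      have hZK : Disjoint Z K := by
        rw [Finset.disjoint_left]
        intro χ h1 h2
        exact hy2K χ h2 (Finset.mem_filter.mp h1).2
      have c1 := card_le_int h.m1 h.s11 (Z ∪ K) (by
        intro χ hχ
        rcases Finset.mem_union.mp hχ with h1 | h1
        · exact hy1Z χ h1
        · exact hy1K χ h1)
      rw [Finset.card_union_of_disjoint hZK, halP] at c1
      have c2 := card_le_int' hM hn h.m2 h.s22 W (fun _ => 1) (by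
        intro χ hχ
        obtain ⟨h1, h2, h3⟩ := Finset.mem_filter.mp hχ
        refine ⟨h2, ?_⟩
        have h4 := Mc_height_ring hM hx hb hd ((hBF χ).mp h1) ψ₀
        obtain ⟨c, hc⟩ := Nat.exists_eq_succ_of_ne_zero h3
        have h5 : MemLocalRing M (Mc p x b χ ψ₀ / (p : ℂ)) := by
          have hpc : (p : ℂ) ≠ 0 := by exact_mod_cast hpr.ne_zero
          have h6 : Mc p x b χ ψ₀ / (p : ℂ) =
              Mc p x b χ ψ₀ / (p : ℂ) ^ blockHeight p B (χ : G → ℂ) * (p : ℂ) ^ c := by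
            rw [hc, pow_succ]; field_simp
          rw [h6]
          exact ring_mul hp h4 (ring_pow hp (ring_nat hp p) c)
        obtain ⟨a, ha⟩ := hdA
        have hpc : (p : ℂ) ≠ 0 := by exact_mod_cast hpr.ne_zero
        have h6 : y2 χ * conj (y2 ψ₀) / (p : ℂ) = Mc p x b χ ψ₀ / (p : ℂ) -
            (a : ℂ) * (y1 χ * conj (y1 ψ₀)) := by
          rw [hmc, ha]; push_cast; field_simp; ring
        have h7 : MemLocalRing M (y2 χ * conj (y2 ψ₀) / (p : ℂ)) := by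
          rw [h6]
          exact ring_sub hp h5 (ring_mul hp (ring_int hp a) (ring_mul hp (g1 _) (g3 _)))
        have h8 := ring_div hp h7 (g4 ψ₀) (hun ψ₀ hψ₀ hψ00).2
        have hc0 : conj (y2 ψ₀) ≠ 0 := ne_zero_of_not_ideal hp (hun ψ₀ hψ₀ hψ00).2
        have h9 : y2 χ / (p : ℂ) ^ 1 = y2 χ * conj (y2 ψ₀) / (p : ℂ) / conj (y2 ψ₀) := by
          rw [pow_one]; field_simp
        rw [h9]; exact h8)
      simp only [pow_one, Finset.sum_const, nsmul_eq_mul] at c2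
      rw [hgaP] at c2
      have hcov : BF ⊆ (Z ∪ K) ∪ W := by
        intro χ hχ
        rw [Finset.mem_union, Finset.mem_union]
        by_cases z : y2 χ = 0
        · exact Or.inl (Or.inl (Finset.mem_filter.mpr ⟨hχ, z⟩))
        · by_cases h0 : blockHeight p B (χ : G → ℂ) = 0
          · exact Or.inl (Or.inr (Finset.mem_filter.mpr ⟨hχ, h0⟩))
          · exact Or.inr (Finset.mem_filter.mpr ⟨hχ, z, h0⟩)
      have c3 := (Finset.card_le_card hcov).trans (Finset.card_union_le _ _)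
      rw [Finset.card_union_of_disjoint hZK] at c3
      have c4 : (BF.card : ℤ) ≤ Z.card + K.card + W.card := by exact_mod_cast c3
      have c5 : 2 * (p : ℤ) ^ f ≤ (p : ℤ) ^ q := by
        rw [hf, pow_add]
        have : (2 : ℤ) ≤ (p : ℤ) ^ e := by
          calc (2 : ℤ) ≤ p := hp2
            _ ≤ (p : ℤ) ^ e := le_self_pow₀ (by omega) he0
        nlinarith
      have c6 : (W.card : ℤ) * 4 ≤ (p : ℤ) ^ q := by
        have h7 : (4 : ℤ) ≤ (p : ℤ) ^ 2 := by nlinarith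
        have h8 : (0 : ℤ) ≤ W.card := Int.natCast_nonneg _
        exact (mul_le_mul_of_nonneg_left h7 h8).trans c2
      push_cast at c1
      have h8 : (0 : ℤ) ≤ W.card := Int.natCast_nonneg _
      have h9 : (0 : ℤ) ≤ (p : ℤ) ^ q := hPpos.le
      linarith
    · push Not at hZ
      have c1 := card_le_int h.m2 h.s22 BF hZ
      rw [hgaP] at c1
      exact c1

end CfsgLib.Ct
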