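import Mathlib
import Cfsg.Agent.EqBase
import Cfsg.Agent.LibCt12

/-!
# Major subsections of rank at most two: S4539 (helper17)
-/

set_option autoImplicit false
set_option linter.unusedSectionVars false
set_option linter.style.haveILetI false
set_option linter.unusedSimpArgs false
set_option linter.unusedVariables false

namespace CfsgLib.Ct

open CfsgLib.CharInt hiding irr_isCharacter irr_classFun irr_one_ne_zero schur_scalar
open Cfsg CfsgLib.CharInt2 CfsgLib.CharBasic CfsgLib.BlockR CfsgLib.BlockCore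
  CfsgLib.BlockIdem CfsgLib.BlockIdeal CfsgLib.BlockConj CfsgLib.BlockBrauer CfsgLib.BlockInd
  CfsgLib.BlockFMT CfsgLib.BlockFMT2 CfsgLib.PLocalInd CfsgLib.BlockOrth CfsgLib.BlockDefect
  CfsgLib.BlockReg CfsgLib.BlockReg2 CfsgLib.BlockCount CfsgLib.BlockCount2 CfsgLib.BlockQP
  CfsgLib.BlockCov3 CfsgLib.BlockCov4 CfsgLib.BlockLoc CfsgLib.BlockM CfsgLib.BlockH
  CfsgLib.BlockH2 CfsgLib.CharNorm CfsgLib.BlockSec CfsgLib.BlockSec3
open scoped ComplexConjugate Pointwise

universe u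

variable {M : Ideal AlgInt} {p : ℕ} [hpF : Fact p.Prime] {G : Type u} [Group G] [Fintype G]
variable {x : G} [hFC : Fintype (Subgroup.centralizer ({x} : Set G))]
variable {b : Set (IrrCharacter (Subgroup.centralizer ({x} : Set G)))} {n : ℕ}

theorem fin_one_sum {m : ℕ} (h : m = 1) (f : Fin m → ℂ) : ∑ i, f i = f ⟨0, by omega⟩ := by
  subst h
  simp

theorem fin_two_sum {m : ℕ} (h : m = 2) (f : Fin m → ℂ) :
    ∑ i, f i = f ⟨0, by omega⟩ + f ⟨1, by omega⟩ := by
  subst h
  rw [Fin.sum_univ_two]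
  rfl

/-- S4539 -/
theorem rank_two (hM : IsPModular p M) (hx : ∃ k : ℕ, orderOf x = p ^ k)
    {B : Set (IrrCharacter G)} (hb : IsInducedBlock M (Subgroup.centralizer ({x} : Set G)) b B)
    (hd : blockDefect p b = blockDefect p B) (hl : blockRank p b ≤ 2)
    (BF : Finset (IrrCharacter G)) (hBF : ∀ χ, χ ∈ BF ↔ χ ∈ B) :
    BF.card ≤ p ^ blockDefect p B := by
  classical
  haveI := LocR.isPrime hM
  have hp := LocR.isPrime hM
  have hpr : p.Prime := Fact.out
  obtain ⟨k, hk⟩ := hx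
  have hx : ∃ k : ℕ, orderOf x = p ^ k := ⟨k, hk⟩
  have hxn : x ^ (p ^ (k + 1)) = 1 := by
    rw [pow_succ, pow_mul, ← hk, pow_orderOf_eq_one, one_pow]
  have hn : 0 < k + 1 := Nat.succ_pos k
  rw [← hd]
  obtain ⟨ψ₀, hψ₀, h00⟩ := exists_height_zero hM hb.2.1
  have hψ00 := (height_zero_iff hM hb.2.1 hψ₀).mpr h00
  have hr := (rk_le hM hb.1).trans hl
  have hQC := QC (x := x) hM hx hb.1
  have hent : ∀ i j : Fin (rk p b), ∑ k, (Qm hM hb.1 i k : ℂ) * Cc p x b k j =
      ((p ^ blockDefect p b : ℕ) : ℂ) * (if i = j then 1 else 0) := by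
    intro i j
    have h1 := congrFun (congrFun hQC i) j
    rw [Matrix.mul_apply] at h1
    exact h1
  have hcases : rk p b = 0 ∨ rk p b = 1 ∨ rk p b = 2 := by omega
  rcases hcases with h0 | h1 | h2
  · exfalso
    apply Mc_ne_zero hM hx hb hd hψ₀ hψ₀ hψ00
    rw [Mc_yy hM hb.1]
    haveI : IsEmpty (Fin (rk p b)) := by rw [h0]; infer_instance
    exact Finset.sum_of_isEmpty _
  · set i0 : Fin (rk p b) := ⟨0, by omega⟩ with hi0
    obtain ⟨al, hal⟩ := Cc_int hM hx hb.1 (x := x) i0 i0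
    have e1 := hent i0 i0
    rw [fin_one_sum h1, ← hi0, if_pos rfl, mul_one, hal] at e1
    have e2 : Qm hM hb.1 i0 i0 * al = (p : ℤ) ^ blockDefect p b := by exact_mod_cast e1
    have hs : ∑ χ : IrrCharacter G, yy p x b χ i0 * conj (yy p x b χ i0) = al := by
      rw [← hal]
      unfold Cc
      simp only [Matrix.of_apply]
      exact Finset.sum_congr rfl fun χ _ => mul_comm _ _
    have hnn := sum_nonneg_int hs
    have hPpos : (0 : ℤ) < (p : ℤ) ^ blockDefect p b := by
      have : (0 : ℤ) < p := by exact_mod_cast hpr.pos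
      positivity
    have hle : al ≤ (p : ℤ) ^ blockDefect p b := Int.le_of_dvd hPpos ⟨_, by rw [← e2, mul_comm]⟩
    have hc := card_le_int (n := k + 1) (fun χ => yy_mem hxn χ i0) hs BF (by
      intro χ hχ h3
      apply Mc_ne_zero hM hx hb hd ((hBF χ).mp hχ) hψ₀ hψ00
      rw [Mc_yy hM hb.1, fin_one_sum h1, fin_one_sum h1, ← hi0, h3, zero_mul, zero_mul])
    exact_mod_cast hc.trans hle
  · set i0 : Fin (rk p b) := ⟨0, by omega⟩ with hi0
    set i1 : Fin (rk p b) := ⟨1, by omega⟩ with hi1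
    have h01 : i0 ≠ i1 := by
      intro h
      have := congrArg Fin.val h
      simp [hi0, hi1] at this
    obtain ⟨al, hal⟩ := Cc_int hM hx hb.1 (x := x) i0 i0
    obtain ⟨be, hbe⟩ := Cc_int hM hx hb.1 (x := x) i1 i0
    obtain ⟨ga, hga⟩ := Cc_int hM hx hb.1 (x := x) i1 i1
    have hbe' : Cc p x b i0 i1 = be := by
      have h3 : Cc p x b i0 i1 = conj (Cc p x b i1 i0) := by
        unfold Cc
        simp only [Matrix.of_apply]
        rw [map_sum]
        refine Finset.sum_congr rfl fun χ _ => ?_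
        rw [map_mul, Complex.conj_conj, mul_comm]
      rw [h3, hbe, cint]
    have e1 := hent i0 i0
    have e2 := hent i0 i1
    have e3 := hent i1 i0
    have e4 := hent i1 i1
    rw [fin_two_sum h2, ← hi0, ← hi1, if_pos rfl, mul_one, hal, hbe] at e1
    rw [fin_two_sum h2, ← hi0, ← hi1, if_neg h01, mul_zero, hbe', hga] at e2
    rw [fin_two_sum h2, ← hi0, ← hi1, if_neg h01.symm, mul_zero, hal, hbe, Qm_symm hM hb.1 i1 i0] at e3
    rw [fin_two_sum h2, ← hi0, ← hi1, if_pos rfl, mul_one, hbe', hga, Qm_symm hM hb.1 i1 i0] at e4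
    have f1 : Qm hM hb.1 i0 i0 * al + Qm hM hb.1 i0 i1 * be = (p : ℤ) ^ blockDefect p b := by
      exact_mod_cast e1
    have f2 : Qm hM hb.1 i0 i0 * be + Qm hM hb.1 i0 i1 * ga = 0 := by exact_mod_cast e2
    have f3 : Qm hM hb.1 i0 i1 * al + Qm hM hb.1 i1 i1 * be = 0 := by exact_mod_cast e3
    have f4 : Qm hM hb.1 i0 i1 * be + Qm hM hb.1 i1 i1 * ga = (p : ℤ) ^ blockDefect p b := by
      exact_mod_cast e4
    have hRD : RD p x b (k + 1) al be ga (Qm hM hb.1 i0 i0) (-Qm hM hb.1 i0 i1) (Qm hM hb.1 i1 i1)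
        (fun χ => yy p x b χ i0) (fun χ => yy p x b χ i1) := by
      refine ⟨fun χ => yy_mem hxn χ i0, fun χ => yy_mem hxn χ i1, ?_, ?_, ?_, ?_, ?_, ?_, ?_, ?_, ?_⟩
      · rw [← hal]
        unfold Cc
        simp only [Matrix.of_apply]
        exact Finset.sum_congr rfl fun χ _ => mul_comm _ _
      · rw [← hbe]
        unfold Cc
        simp only [Matrix.of_apply]
        exact Finset.sum_congr rfl fun χ _ => mul_comm _ _
      · rw [← hga]
        unfold Cc
        simp only [Matrix.of_apply]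
        exact Finset.sum_congr rfl fun χ _ => mul_comm _ _
      · intro χ ψ
        rw [Mc_yy hM hb.1, fin_two_sum h2, fin_two_sum h2, fin_two_sum h2, ← hi0, ← hi1,
          Qm_symm hM hb.1 i1 i0]
        push_cast; ring
      · linear_combination f1
      · linear_combination f2
      · linear_combination f3
      · linear_combination f4
      · have h3 := Qm_minor hM hb.1 i0 i1 i0 i1
        rw [Qm_symm hM hb.1 i1 i0] at h3
        have h4 : Qm hM hb.1 i0 i0 * Qm hM hb.1 i1 i1 - -Qm hM hb.1 i0 i1 * -Qm hM hb.1 i0 i1 =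
          Qm hM hb.1 i0 i0 * Qm hM hb.1 i1 i1 - Qm hM hb.1 i0 i1 * Qm hM hb.1 i0 i1 := by ring
        rw [h4]; exact h3
    have hpos := hRD.pos
    obtain ⟨al', be', ga', A', H', E', y1', y2', hR', g1, g2, g3⟩ :=
      RD.reduce (al + ga).toNat _ _ _ _ _ _ _ _ hRD (by omega)
    have := hR'.bound hM hx hn hb hd BF hBF g1 g2 g3
    exact_mod_cast this

end CfsgLib.Ct
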