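import Mathlib
import Cfsg.Agent.LibCtH12
import Cfsg.Agent.LibPQ
import Cfsg.Agent.LibLE3

/-!
# Coprime action: the case of two fixed-point subgroups (helper12)
-/

set_option autoImplicit false
set_option linter.style.haveILetI false
set_option linter.unusedSectionVars false

namespace CfsgLib.CtH12

open Cfsg Subgroup CfsgLib.Cores
open scoped commutatorElement

universe u

theorem three_le {G : Type*} [Group G] {N A B C : Subgroup G} [N.Normal] (h1 : ⁅⁅B, C⁆, A⁆ ≤ N)
    (h2 : ⁅⁅C, A⁆, B⁆ ≤ N) : ⁅⁅A, B⁆, C⁆ ≤ N := by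
  apply comm_le_of_quot
  rw [Subgroup.map_commutator]
  apply Subgroup.commutator_commutator_eq_bot_of_rotate
  · rw [← Subgroup.map_commutator, ← Subgroup.map_commutator, Subgroup.map_eq_bot_iff, QuotientGroup.ker_mk']
    exact h1
  · rw [← Subgroup.map_commutator, ← Subgroup.map_commutator, Subgroup.map_eq_bot_iff, QuotientGroup.ker_mk']
    exact h2

/-- `[D, X] M = D` and `D/M` abelian, coprime action: `C_D(X) ≤ M` -/
theorem cent_le_of_comm_sup {G : Type*} [Group G] [Finite G] {D M X : Subgroup G} [hDn : D.Normal] [M.Normal]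
    (hDD : ⁅D, D⁆ ≤ M) (hcop : (Nat.card X).Coprime (Nat.card D)) (h : D ≤ ⁅D, X⁆ ⊔ M) :
    D ⊓ centralizer (X : Set G) ≤ M := by
  have hf := QuotientGroup.mk'_surjective M
  haveI : (D.map (QuotientGroup.mk' M)).Normal := hDn.map _ hf
  haveI hcomm : IsMulCommutative (D.map (QuotientGroup.mk' M)) := by
    constructor
    constructor
    rintro ⟨_, a, ha, rfl⟩ ⟨_, b, hb, rfl⟩
    apply Subtype.ext
    change QuotientGroup.mk' M a * QuotientGroup.mk' M b = QuotientGroup.mk' M b * QuotientGroup.mk' M a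
    rw [← map_mul, ← map_mul]
    have h1 := hDD (commutator_mem_commutator (inv_mem ha) (inv_mem hb))
    rw [QuotientGroup.mk'_apply, QuotientGroup.mk'_apply, QuotientGroup.eq]
    rw [commutatorElement_def] at h1
    have h2 : (a * b)⁻¹ * (b * a) = b⁻¹ * a⁻¹ * b * a := by group
    rw [h2]
    have h3 := inv_mem h1
    have h4 : (a⁻¹ * b⁻¹ * a⁻¹⁻¹ * b⁻¹⁻¹)⁻¹ = b⁻¹ * a⁻¹ * b * a := by group
    rwa [h4] at h3
  have hn : X.map (QuotientGroup.mk' M) ≤ normalizer ((D.map (QuotientGroup.mk' M) : Subgroup (G ⧸ M)) : Set (G ⧸ M)) := by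
    rw [normalizer_eq_top_iff.2 inferInstance]; exact le_top
  have hc : (Nat.card (X.map (QuotientGroup.mk' M))).Coprime (Nat.card (D.map (QuotientGroup.mk' M))) :=
    Nat.Coprime.of_dvd (Subgroup.card_map_dvd _ _) (Subgroup.card_map_dvd _ _) hcop
  have h1 := (CfsgLib.Coprime2.abelian_decomp hn hc).1
  have h2 : D.map (QuotientGroup.mk' M) ≤ ⁅D.map (QuotientGroup.mk' M), X.map (QuotientGroup.mk' M)⁆ := by
    rw [← Subgroup.map_commutator]
    have h3 := Subgroup.map_mono (f := QuotientGroup.mk' M) h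
    rw [Subgroup.map_sup, QuotientGroup.map_mk'_self, sup_bot_eq] at h3
    exact h3
  have h3 : (D ⊓ centralizer (X : Set G)).map (QuotientGroup.mk' M) = ⊥ := by
    rw [eq_bot_iff, ← h1]
    refine le_inf (le_inf (Subgroup.map_mono inf_le_left) ?_) ((Subgroup.map_mono inf_le_left).trans h2)
    rintro _ ⟨x, hx, rfl⟩
    rw [mem_centralizer_iff]
    rintro _ ⟨y, hy, rfl⟩
    rw [← map_mul, ← map_mul, mem_centralizer_iff.1 hx.2 y hy]
  rw [Subgroup.map_eq_bot_iff, QuotientGroup.ker_mk'] at h3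
  exact h3

/-- the two fixed-point subgroups commute -/
theorem two_fix {G : Type*} [Group G] [Finite G] {p : ℕ} [hp : Fact p.Prime] {P Q X₁ X₂ : Subgroup G} [hPn : P.Normal]
    (hP : IsPGroup p P) (hQ : ¬ p ∣ Nat.card Q) (hQc : IsMulCommutative Q) (hQn : ¬ IsCyclic Q) (hS : P ⊔ Q = ⊤) (h₁ : X₁ ≤ Q) (h₂ : X₂ ≤ Q)
    (h12 : (P ⊓ centralizer (X₁ : Set G)) ⊓ (P ⊓ centralizer (X₂ : Set G)) = ⊥)
    (hgen : ∀ a ∈ Q, a ≠ 1 → P ⊓ centralizer ({a} : Set G) ≤ P ⊓ centralizer (X₁ : Set G) ∨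
      P ⊓ centralizer ({a} : Set G) ≤ P ⊓ centralizer (X₂ : Set G)) :
    ⁅P ⊓ centralizer (X₁ : Set G), P ⊓ centralizer (X₂ : Set G)⁆ = ⊥ := by
  set P1 := P ⊓ centralizer (X₁ : Set G) with hP1
  set P2 := P ⊓ centralizer (X₂ : Set G) with hP2
  have hcopP : (Nat.card Q).Coprime (Nat.card P) := (cop_of_pgroup hP hQ).symm
  have hsP : Group.IsSolvable P := solv_of_pgroup hP
  have hQQ : ∀ a ∈ Q, ∀ b ∈ Q, a * b = b * a := fun a ha b hb => congrArg Subtype.val (hQc.is_comm.comm ⟨a, ha⟩ ⟨b, hb⟩)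
  -- Q normalizes P1, P2
  have hnormC : ∀ X : Subgroup G, X ≤ Q → Q ≤ normalizer ((P ⊓ centralizer (X : Set G) : Subgroup G) : Set G) := by
    intro X hX a ha
    have hsub : ∀ b ∈ Q, ∀ y ∈ P ⊓ centralizer (X : Set G), b * y * b⁻¹ ∈ P ⊓ centralizer (X : Set G) := by
      intro b hb y hy
      refine ⟨hPn.conj_mem y hy.1 b, mem_centralizer_iff.2 ?_⟩
      intro x hx
      have e1 := mem_centralizer_iff.1 hy.2 x hx
      have e2 := hQQ x (hX hx) b hb
      calc x * (b * y * b⁻¹) = (x * b) * y * b⁻¹ := by group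
        _ = b * (x * y) * b⁻¹ := by rw [e2]; group
        _ = b * y * (x * b⁻¹) := by rw [e1]; group
        _ = b * y * (b⁻¹ * x) := by rw [hQQ x (hX hx) b⁻¹ (inv_mem hb)]
        _ = _ := by group
    rw [mem_normalizer_iff]
    intro y
    constructor
    · exact hsub a ha y
    · intro hy
      have := hsub a⁻¹ (inv_mem ha) _ hy
      have e : a⁻¹ * (a * y * a⁻¹) * a⁻¹⁻¹ = y := by group
      rwa [e] at this
  set D := ⁅P1, P2⁆ with hD
  -- generation
  have hPgen : ∀ K : Subgroup G, K ≤ P → Q ≤ normalizer (K : Set G) → K ≤ (K ⊓ P1) ⊔ (K ⊓ P2) := by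
    intro K hK hKn
    haveI := hQc
    have h1 := CfsgLib.Coprime2.generation_noncyclic hQn hKn (Nat.Coprime.of_dvd dvd_rfl (Subgroup.card_dvd_of_le hK) hcopP)
    rw [← h1]
    apply iSup₂_le
    rintro a ⟨ha, ha1⟩
    rcases hgen a ha ha1 with h | h
    · refine le_trans ?_ le_sup_left
      exact le_inf (h1.symm ▸ inf_le_left) ((le_inf (inf_le_left.trans hK) inf_le_right).trans h)
    · refine le_trans ?_ le_sup_right
      exact le_inf (h1.symm ▸ inf_le_left) ((le_inf (inf_le_left.trans hK) inf_le_right).trans h)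
  have hP12 : P ≤ P1 ⊔ P2 := by
    refine (hPgen P le_rfl ?_).trans (sup_le_sup inf_le_right inf_le_right)
    rw [normalizer_eq_top_iff.2 hPn]; exact le_top
  have hDnQ : Q ≤ normalizer (D : Set G) :=
    CfsgLib.LE.le_normalizer_commutator (hnormC X₁ h₁) (hnormC X₂ h₂)
  have hDnP : P ≤ normalizer (D : Set G) :=
    hP12.trans (sup_le (normalizer_commutator_ge_left _ _) (normalizer_commutator_ge_right _ _))
  haveI hDn : D.Normal := by
    rw [← normalizer_eq_top_iff, eq_top_iff, ← hS]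
    exact sup_le hDnP hDnQ
  have hDP : D ≤ P := (commutator_mono inf_le_left inf_le_left).trans (commutator_le_self P)
  by_contra hne
  set M := ⁅D, P⁆ with hM
  haveI hMn : M.Normal := commutator_normal D P
  have hMlt : M < D := CfsgLib.PQ.commutator_lt_of_pgroup (hP.to_le hDP) hP hDnP hne
  have hDDM : ⁅D, D⁆ ≤ M := commutator_mono le_rfl hDP
  -- the two factorizations
  have hbig : ∀ N : Subgroup G, M ≤ N → N ≤ D → Q ≤ normalizer (N : Set G) → N.Normal := by
    intro N hMN hND hQN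
    rw [← normalizer_eq_top_iff, eq_top_iff, ← hS]
    refine sup_le (fun g hg => ?_) hQN
    have hsub : ∀ b ∈ P, ∀ y ∈ N, b * y * b⁻¹ ∈ N := by
      intro b hb y hy
      have h1 : ⁅b, y⁆ ∈ N := by
        apply hMN
        rw [hM, commutator_comm]
        exact commutator_mem_commutator hb (hND hy)
      have h2 := mul_mem h1 hy
      rw [commutatorElement_def] at h2
      simpa using h2
    rw [mem_normalizer_iff]
    intro y
    constructor
    · exact hsub g hg y
    · intro hy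
      have := hsub g⁻¹ (inv_mem hg) _ hy
      have e : g⁻¹ * (g * y * g⁻¹) * g⁻¹⁻¹ = y := by group
      rwa [e] at this
  have hXn : ∀ X : Subgroup G, X ≤ Q → Q ≤ normalizer (X : Set G) := by
    intro X hX a ha
    rw [mem_normalizer_iff]
    intro y
    constructor
    · intro hy
      rw [hQQ a ha y (hX hy), mul_inv_cancel_right]; exact hy
    · intro hy
      have h1 := hX hy
      have h2 : y ∈ Q := by
        have := mul_mem (mul_mem (inv_mem ha) h1) ha
        have e : a⁻¹ * (a * y * a⁻¹) * a = y := by group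
        rwa [e] at this
      rw [hQQ a ha y h2, mul_inv_cancel_right] at hy; exact hy
  have hfac : ∀ X : Subgroup G, X ≤ Q → ∀ A B : Subgroup G, A = P ⊓ centralizer (X : Set G) → B ≤ P →
      Q ≤ normalizer (B : Set G) → B ⊓ A = ⊥ → ⁅B, A⁆ = D → D ≤ ⁅D, X⁆ ⊔ M := by
    intro X hX A B hA hB hBn hBA hBD
    haveI : (⁅D, X⁆ ⊔ M).Normal := by
      apply hbig _ le_sup_right
      · refine sup_le ?_ hMlt.le
        exact commutator_le_left D X
      · refine CfsgLib.LE.le_normalizer_sup ?_ ?_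
        · refine CfsgLib.LE.le_normalizer_commutator ?_ (hXn X hX)
          rw [normalizer_eq_top_iff.2 hDn]; exact le_top
        · rw [normalizer_eq_top_iff.2 hMn]; exact le_top
    have h1 : B ≤ ⁅B, X⁆ := by
      have h2 := CfsgLib.Coprime.commutator_sup_centralizer (hX.trans hBn)
        (Nat.Coprime.of_dvd (Subgroup.card_dvd_of_le hX) (Subgroup.card_dvd_of_le hB) hcopP)
        (Or.inr (solv_of_pgroup (hP.to_le hB)))
      have h3 : B ⊓ centralizer (X : Set G) = ⊥ := by
        rw [eq_bot_iff, ← hBA, hA]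
        exact le_inf inf_le_left (le_inf (inf_le_left.trans hB) inf_le_right)
      rw [h3, sup_bot_eq] at h2
      exact h2.ge
    have h4 : ⁅⁅B, X⁆, A⁆ ≤ ⁅D, X⁆ ⊔ M := by
      apply three_le
      · have h5 : ⁅X, A⁆ = ⊥ := by
          rw [commutator_comm, commutator_eq_bot_iff_le_centralizer, hA]; exact inf_le_right
        rw [h5, commutator_bot_left]; exact bot_le
      · rw [commutator_comm A B, hBD]; exact le_sup_left
    have h6 := (commutator_mono h1 (le_refl A)).trans h4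
    rwa [hBD] at h6
  have hf2 : D ≤ ⁅D, X₂⁆ ⊔ M := hfac X₂ h₂ P2 P1 rfl inf_le_left (hnormC X₁ h₁) h12 rfl
  have hf1 : D ≤ ⁅D, X₁⁆ ⊔ M := hfac X₁ h₁ P1 P2 rfl inf_le_left (hnormC X₂ h₂) (by rw [inf_comm]; exact h12)
    (commutator_comm _ _)
  have hcopD : ∀ X : Subgroup G, X ≤ Q → (Nat.card X).Coprime (Nat.card D) := fun X hX =>
    Nat.Coprime.of_dvd (Subgroup.card_dvd_of_le hX) (Subgroup.card_dvd_of_le hDP) hcopP
  have hc1 := cent_le_of_comm_sup hDDM (hcopD X₁ h₁) hf1
  have hc2 := cent_le_of_comm_sup hDDM (hcopD X₂ h₂) hf2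
  have hDM : D ≤ M := by
    refine (hPgen D hDP hDnQ).trans (sup_le ?_ ?_)
    · exact le_trans (le_inf inf_le_left (inf_le_right.trans inf_le_right)) hc1
    · exact le_trans (le_inf inf_le_left (inf_le_right.trans inf_le_right)) hc2
  exact absurd hDM (not_le_of_gt hMlt)

end CfsgLib.CtH12
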