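import Mathlib
import Cfsg.Agent.LibCtH12c

/-!
# Fixed points of a Sylow subgroup on an abelian group: the full fixed points split off (helper12)
-/

set_option autoImplicit false
set_option linter.style.haveILetI false
set_option linter.unusedSectionVars false

namespace CfsgLib.CtH12

open Cfsg Subgroup CfsgLib.Cores

theorem direct_factor {N V : Type*} [Group N] [Finite N] [CommGroup V] [Finite V] (φ : N →* MulAut V) (S : Subgroup N)
    (hcop : (S.index).Coprime (Nat.card V)) : ∃ K : Subgroup V, (∀ v ∈ K, ∀ s ∈ S, φ s v = v) ∧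
      (∀ v ∈ K, (∀ n, φ n v = v) → v = 1) ∧
      (∀ v, (∀ s ∈ S, φ s v = v) → ∃ w, (∀ n, φ n w = w) ∧ ∃ k ∈ K, v = w * k) := by
  classical
  haveI : Fintype (N ⧸ S) := Fintype.ofFinite _
  let f : V →* V :=
    { toFun := fun v => ∏ q : N ⧸ S, φ q.out v
      map_one' := by simp
      map_mul' := fun a b => by simp [Finset.prod_mul_distrib] }
  have hf : ∀ v, f v = ∏ q : N ⧸ S, φ q.out v := fun v => rfl
  have hfN : ∀ v, (∀ s ∈ S, φ s v = v) → ∀ n, φ n (f v) = f v := by
    intro v hv n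
    rw [hf, map_prod]
    have h1 : ∀ q : N ⧸ S, φ n (φ q.out v) = φ (n • q : N ⧸ S).out v := by
      intro q
      have h2 : (QuotientGroup.mk ((n • q : N ⧸ S).out) : N ⧸ S) = QuotientGroup.mk (n * q.out) := by
        rw [QuotientGroup.out_eq']
        conv_lhs => rw [← QuotientGroup.out_eq' q]
        rfl
      rw [QuotientGroup.eq] at h2
      have h3 := hv _ h2
      have h4 : φ n (φ q.out v) = φ ((n • q : N ⧸ S).out) (φ (((n • q : N ⧸ S).out)⁻¹ * (n * q.out)) v) := by
        rw [← MulAut.mul_apply, ← MulAut.mul_apply, ← map_mul, ← map_mul, mul_inv_cancel_left]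
      rw [h4, h3]
    rw [Finset.prod_congr rfl (fun q _ => h1 q)]
    exact Fintype.prod_bijective (fun q : N ⧸ S => n • q) (MulAction.bijective n) _ _ (fun q => rfl)
  have hfpow : ∀ v, (∀ n, φ n v = v) → f v = v ^ S.index := by
    intro v hv
    rw [hf, Finset.prod_congr rfl (fun q _ => hv _), Finset.prod_const, Finset.card_univ, ← Nat.card_eq_fintype_card,
      Subgroup.index_eq_card]
  refine ⟨{ carrier := {v | (∀ s ∈ S, φ s v = v) ∧ f v = 1}
            mul_mem' := ?_, one_mem' := ?_, inv_mem' := ?_ }, fun v hv => hv.1, ?_, ?_⟩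
  · rintro a b ⟨ha, ha'⟩ ⟨hb, hb'⟩
    exact ⟨fun s hs => by rw [map_mul, ha s hs, hb s hs], by rw [map_mul, ha', hb', one_mul]⟩
  · exact ⟨fun s _ => map_one _, map_one _⟩
  · rintro a ⟨ha, ha'⟩
    exact ⟨fun s hs => by rw [map_inv, ha s hs], by rw [map_inv, ha', inv_one]⟩
  · rintro v ⟨_, hv⟩ hv2
    rw [hfpow v hv2] at hv
    have h1 : orderOf v ∣ S.index := orderOf_dvd_of_pow_eq_one hv
    have h2 : orderOf v ∣ Nat.card V := orderOf_dvd_natCard v
    have h3 := Nat.dvd_gcd h1 h2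
    rw [hcop] at h3
    exact orderOf_eq_one_iff.1 (Nat.dvd_one.1 h3)
  · intro v hv
    obtain ⟨k, hk⟩ : ∃ k : ℤ, ∀ u : V, (u ^ S.index) ^ k = u :=
      ⟨_, fun u => (powCoprime hcop.symm).left_inv u⟩
    refine ⟨(f v) ^ k, fun n => by rw [map_zpow, hfN v hv n], ((f v) ^ k)⁻¹ * v, ⟨fun s hs => ?_, ?_⟩, by group⟩
    · rw [map_mul, map_inv, map_zpow, hfN v hv s, hv s hs]
    · rw [map_mul, map_inv, hfpow _ (fun n => by rw [map_zpow, hfN v hv n]), ← zpow_natCast, ← zpow_mul, mul_comm k, zpow_mul, zpow_natCast, hk,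
        inv_mul_cancel]

end CfsgLib.CtH12

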