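import Mathlib
import Cfsg.Agent.LibExtend8

/-!
# Characters of abelian groups with absolute value one off the identity (helper20)
-/

set_option autoImplicit false
set_option linter.all false

namespace CfsgLib.Extend

open Cfsg CfsgLib.CharBasic CfsgLib.Clifford CfsgLib.Gallagher
open scoped Pointwise ComplexConjugate

universe u v w

/-- integers with `h Σ b² - (Σ b)² = h - 1` are equal up to one exception, off by one -/
theorem comb {ι : Type*} [Fintype ι] (b : ι → ℤ) (h2 : 2 ≤ Fintype.card ι)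
    (hb : (Fintype.card ι : ℤ) * ∑ i, b i ^ 2 - (∑ i, b i) ^ 2 = Fintype.card ι - 1) :
    ∃ (c ε : ℤ) (i : ι), (ε = 1 ∨ ε = -1) ∧ b i = c + ε ∧ ∀ j, j ≠ i → b j = c := by
  classical
  set h : ℤ := (Fintype.card ι : ℤ) with hh
  have hh2 : 2 ≤ h := by rw [hh]; exact_mod_cast h2
  obtain ⟨c, r, hS, hr1, hr2⟩ : ∃ c r : ℤ, ∑ i, b i = h * c + r ∧ 2 * r ≤ h ∧ -h ≤ 2 * r := by
    have h3 := Int.mul_ediv_add_emod (∑ i, b i) h
    have h4 := Int.emod_nonneg (∑ i, b i) (by omega : h ≠ 0)
    have h5 := Int.emod_lt_of_pos (∑ i, b i) (by omega : 0 < h)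
    by_cases h6 : 2 * ((∑ i, b i) % h) ≤ h
    · exact ⟨(∑ i, b i) / h, (∑ i, b i) % h, h3.symm, h6, by omega⟩
    · refine ⟨(∑ i, b i) / h + 1, (∑ i, b i) % h - h, ?_, by omega, by omega⟩
      linear_combination -h3
  set d : ι → ℤ := fun j => b j - c with hd
  have hd1 : ∑ j, d j = r := by
    simp only [hd, Finset.sum_sub_distrib, Finset.sum_const, Finset.card_univ, nsmul_eq_mul]
    rw [hS, ← hh]; ring
  have hd2 : h * ∑ j, d j ^ 2 = r ^ 2 + h - 1 := by
    have h3 : ∑ j, d j ^ 2 = ∑ j, b j ^ 2 - 2 * c * ∑ j, b j + h * c ^ 2 := by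
      rw [Finset.mul_sum, ← Finset.sum_sub_distrib]
      have h4 : h * c ^ 2 = ∑ j : ι, c ^ 2 := by
        rw [Finset.sum_const, Finset.card_univ, nsmul_eq_mul]
      rw [h4, ← Finset.sum_add_distrib]
      refine Finset.sum_congr rfl fun j _ => ?_
      simp only [hd]; ring
    rw [h3]
    have h5 : h * ∑ i, b i ^ 2 = (h * c + r) ^ 2 + (h - 1) := by rw [← hS]; linear_combination hb
    rw [hS]
    linear_combination h5
  have hle1 : r ≤ ∑ j, d j ^ 2 := by
    rw [← hd1]
    exact Finset.sum_le_sum fun j _ => by nlinarith [mul_self_nonneg (d j), Int.le_self_sq (d j)]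
  have hle2 : -r ≤ ∑ j, d j ^ 2 := by
    rw [← hd1, ← Finset.sum_neg_distrib]
    refine Finset.sum_le_sum fun j _ => ?_
    have := Int.le_self_sq (-(d j))
    nlinarith
  have hr : r = 1 ∨ r = -1 := by
    rcases lt_trichotomy r 0 with h3 | h3 | h3
    · right
      by_contra hne
      have h4 : 2 ≤ -r := by omega
      nlinarith
    · exfalso
      rw [h3] at hd2
      have h4 : h ∣ 1 := by
        refine ⟨1 - ∑ j, d j ^ 2, ?_⟩
        linear_combination hd2
      have h5 := Int.le_of_dvd one_pos h4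
      omega
    · left
      by_contra hne
      have h4 : 2 ≤ r := by omega
      nlinarith
  have hr2' : r ^ 2 = 1 := by rcases hr with h3 | h3 <;> rw [h3] <;> norm_num
  have hd3 : ∑ j, d j ^ 2 = 1 := by
    rw [hr2'] at hd2
    have h3 : h * ∑ j, d j ^ 2 = h * 1 := by linear_combination hd2
    exact mul_left_cancel₀ (by omega : h ≠ 0) h3
  obtain ⟨i, hi⟩ : ∃ i, d i ≠ 0 := by
    by_contra hcon
    push Not at hcon
    simp [hcon] at hd3
  have h3 : d i ^ 2 + ∑ j ∈ Finset.univ.erase i, d j ^ 2 = 1 := by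
    rw [Finset.add_sum_erase _ (fun j => d j ^ 2) (Finset.mem_univ i), hd3]
  have h4 : 1 ≤ d i ^ 2 := by
    have : 0 < d i ^ 2 := by positivity
    omega
  have h5 : 0 ≤ ∑ j ∈ Finset.univ.erase i, d j ^ 2 := Finset.sum_nonneg fun j _ => sq_nonneg _
  have h6 : ∑ j ∈ Finset.univ.erase i, d j ^ 2 = 0 := by omega
  have h7 := (Finset.sum_eq_zero_iff_of_nonneg fun j _ => sq_nonneg (d j)).mp h6
  have h8 : ∀ j, j ≠ i → d j = 0 := by
    intro j hj
    have := h7 j (Finset.mem_erase.mpr ⟨hj, Finset.mem_univ _⟩)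
    exact pow_eq_zero_iff (two_ne_zero) |>.mp this
  have h9 : d i = r := by
    rw [← hd1]
    exact (Finset.sum_eq_single i (fun j _ hj => h8 j hj) (fun h => absurd (Finset.mem_univ _) h)).symm
  refine ⟨c, r, i, hr, ?_, fun j hj => ?_⟩
  · simp only [hd] at h9; omega
  · have := h8 j hj
    simp only [hd] at this; omega

section Abelian
variable {Q : Type u} [Group Q] [Fintype Q]

theorem card_irr_comm (hab : ∀ a b : Q, a * b = b * a) : Fintype.card (IrrCharacter Q) = Nat.card Q := by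
  have h1 := sum_sq_degree (G := Q)
  have h2 : ∀ χ : IrrCharacter Q, (χ : Q → ℂ) 1 = 1 := fun χ => irr_degree_one_of_comm hab χ.2
  simp only [h2] at h1
  simp at h1
  rw [Nat.card_eq_fintype_card]
  exact_mod_cast h1

/-- a character of an abelian group of absolute value one off the identity -/
theorem char_abs_one (hab : ∀ a b : Q, a * b = b * a) (h2 : 2 ≤ Nat.card Q) {β : Q → ℂ} (hβ : IsCharacter Q β)
    (h1 : ∀ y, y ≠ 1 → β y * conj (β y) = 1) :
    ∃ (c : ℕ) (ε : ℤ) (μ : IrrCharacter Q), (ε = 1 ∨ ε = -1) ∧ classInner β (μ : Q → ℂ) = c + ε ∧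
      ∀ μ' : IrrCharacter Q, μ' ≠ μ → classInner β (μ' : Q → ℂ) = c := by
  classical
  obtain ⟨m, hm, hexp, hnorm⟩ := char_expand hβ
  obtain ⟨e, he⟩ := char_one_nat hβ
  have hcard := card_irr_comm hab
  have hQ : (Nat.card Q : ℂ) ≠ 0 := by exact_mod_cast Nat.card_pos.ne'
  have hS1 : (e : ℂ) = ∑ χ, (m χ : ℂ) := by
    rw [← he]
    conv_lhs => rw [hexp]
    rw [Finset.sum_apply]
    refine Finset.sum_congr rfl fun χ _ => ?_
    rw [Pi.smul_apply, irr_degree_one_of_comm hab χ.2, smul_eq_mul, mul_one]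
  have hS2 : (Nat.card Q : ℂ) * ∑ χ, (m χ : ℂ) ^ 2 = e ^ 2 + Nat.card Q - 1 := by
    rw [← hnorm, classInner, mul_inv_cancel_left₀ hQ, ← Finset.add_sum_erase _ _ (Finset.mem_univ (1 : Q))]
    rw [Finset.sum_congr rfl (fun y hy => h1 y (Finset.ne_of_mem_erase hy)), Finset.sum_const, Finset.card_erase_of_mem (Finset.mem_univ _),
      Finset.card_univ, he, Complex.conj_natCast, nsmul_eq_mul, mul_one, Nat.card_eq_fintype_card,
      Nat.cast_sub (Fintype.card_pos)]
    push_cast
    ring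
  have hint : (Fintype.card (IrrCharacter Q) : ℤ) * ∑ χ, (m χ : ℤ) ^ 2 - (∑ χ, (m χ : ℤ)) ^ 2 = Fintype.card (IrrCharacter Q) - 1 := by
    rw [hcard]
    have h3 : (Nat.card Q : ℂ) * ∑ χ, (m χ : ℂ) ^ 2 - (∑ χ, (m χ : ℂ)) ^ 2 = Nat.card Q - 1 := by
      rw [hS2, ← hS1]; ring
    exact_mod_cast h3
  obtain ⟨c, ε, i, hε, hi, hj⟩ := comb (fun χ => (m χ : ℤ)) (by rw [hcard]; exact h2) hint
  have hc : 0 ≤ c := by
    have h3 : 1 < Fintype.card (IrrCharacter Q) := by rw [hcard]; omega
    obtain ⟨j, hji⟩ := Fintype.exists_ne_of_one_lt_card h3 i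
    rw [← hj j hji]
    exact Int.natCast_nonneg _
  obtain ⟨c', rfl⟩ := Int.eq_ofNat_of_zero_le hc
  refine ⟨c', ε, i, hε, ?_, fun μ' hμ' => ?_⟩
  · rw [hm]
    exact_mod_cast congrArg (fun z : ℤ => (z : ℂ)) hi
  · rw [hm]
    exact_mod_cast congrArg (fun z : ℤ => (z : ℂ)) (hj μ' hμ')

end Abelian

section Factor
variable {H : Type u} [Group H] [Fintype H] (N : Subgroup H) [hN : N.Normal] [Fintype N]

/-- Gallagher for reducible characters -/
theorem char_factor {θh χ : H → ℂ} (hθh : IsIrrCharacter H θh) (hθN : IsIrrCharacter N (fun n : N => θh n)) (hχ : IsCharacter H χ)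
    (e : ℕ) (he : ∀ n : N, χ n = e * θh n) :
    IsCharacter H (avg N (fun g => χ g * conj (θh g))) ∧ (∀ g, avg N (fun g => χ g * conj (θh g)) g * θh g = χ g) ∧
      avg N (fun g => χ g * conj (θh g)) 1 = e := by
  classical
  refine ⟨avg_char N (isCharacter_mul hχ (isCharacter_conj (irr_isCharacter hθh))), ?_, ?_⟩
  · obtain ⟨m, hm, hexp, -⟩ := char_expand hχ
    have hpart : ∀ ψ : IrrCharacter H, m ψ ≠ 0 → classInner (fun n : N => (ψ : H → ℂ) n) (fun n : N => θh n) ≠ 0 := by
      intro ψ hψ h0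
      obtain ⟨θ', hθ', hne⟩ := exists_below N ψ.2
      have h1 : θ' ≠ fun n : N => θh n := by
        rintro rfl; exact hne h0
      -- [χ_N, θ'] = 0
      have h2 : classInner (fun n : N => χ n) θ' = 0 := by
        have h3 : (fun n : N => χ n) = (e : ℂ) • (fun n : N => θh n) := by ext n; rw [he]; rfl
        rw [h3, CfsgLib.CharBasic.inner_smul_left, irr_inner_ne hθN hθ' (Ne.symm h1), mul_zero]
      have h3 : (fun n : N => χ n) = ∑ φ : IrrCharacter H, (m φ : ℂ) • (fun n : N => (φ : H → ℂ) n) := by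
        ext n
        have := congrFun hexp (n : H)
        rw [this]
        simp [Finset.sum_apply]
      choose k hk using fun φ : IrrCharacter H => char_mult (isCharacter_restrict (irr_isCharacter φ.2) N) (irr_isCharacter hθ')
      rw [h3, CfsgLib.CharBasic.inner_sum_left] at h2
      have h4 : ∑ φ : IrrCharacter H, (m φ * k φ : ℕ) = 0 := by
        have : ((∑ φ : IrrCharacter H, (m φ * k φ : ℕ) : ℕ) : ℂ) = 0 := by
          rw [← h2]
          push_cast
          refine Finset.sum_congr rfl fun φ _ => ?_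
          rw [CfsgLib.CharBasic.inner_smul_left, hk]
        exact_mod_cast this
      have h5 := (Finset.sum_eq_zero_iff.mp h4) ψ (Finset.mem_univ _)
      rcases Nat.mul_eq_zero.mp h5 with h6 | h6
      · exact hψ h6
      · apply hne
        rw [hk, h6, Nat.cast_zero]
    intro g
    have h1 : avg N (fun g => χ g * conj (θh g)) g = ∑ ψ : IrrCharacter H, (m ψ : ℂ) * avg N (fun g => (ψ : H → ℂ) g * conj (θh g)) g := by
      unfold avg
      conv_lhs => rw [hexp]
      simp only [Finset.sum_apply, Pi.smul_apply, smul_eq_mul, Finset.sum_mul, Finset.mul_sum]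
      rw [Finset.sum_comm]
      refine Finset.sum_congr rfl fun ψ _ => Finset.sum_congr rfl fun n _ => ?_
      ring
    rw [h1, Finset.sum_mul]
    conv_rhs => rw [hexp]
    rw [Finset.sum_apply]
    refine Finset.sum_congr rfl fun ψ _ => ?_
    rw [Pi.smul_apply, smul_eq_mul]
    by_cases hψ : m ψ = 0
    · rw [hψ]; simp
    · obtain ⟨-, h2⟩ := gallagher_exists N hθh hθN ψ.2 (hpart ψ hψ)
      have h3 := congrFun h2 g
      rw [mul_assoc]
      congr 1
  · rw [avg_one]
    have h3 : (fun n : N => χ n) = (e : ℂ) • (fun n : N => θh n) := by ext n; rw [he]; rfl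
    rw [h3, CfsgLib.CharBasic.inner_smul_left, irr_inner_self hθN, mul_one]

/-- the coset norms -/
theorem avg_factor {θh χ : H → ℂ} (hθh : IsIrrCharacter H θh) (hθN : IsIrrCharacter N (fun n : N => θh n)) (hχ : IsCharacter H χ)
    (e : ℕ) (he : ∀ n : N, χ n = e * θh n) (g : H) :
    avg N (fun g => χ g * conj (χ g)) g =
      avg N (fun g => χ g * conj (θh g)) g * conj (avg N (fun g => χ g * conj (θh g)) g) := by
  obtain ⟨-, h2, -⟩ := char_factor N hθh hθN hχ e he
  set β := avg N (fun g => χ g * conj (θh g)) with hβ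
  have h3 : (fun g => χ g * conj (χ g)) = fun g => (β g * conj (β g)) * (θh g * conj (θh g)) := by
    ext x
    rw [← h2 x, map_mul]; ring
  rw [h3, avg_mul_of_inv N (fun g => β g * conj (β g)) (fun g => θh g * conj (θh g)) (fun n hn x => by
    have : β (n * x) = β x := avg_mul_left N _ ⟨n, hn⟩ x
    show β (n * x) * conj (β (n * x)) = β x * conj (β x)
    rw [this])]
  rw [avg_norm_sq N (irr_isCharacter hθh) hθN]
  exact mul_one _

end Factor

end CfsgLib.Extend
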