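import Mathlib
import Cfsg.Agent.LibExtend9
import Cfsg.Agent.LibCoprime
import Cfsg.Agent.LibGlaubG
import Cfsg.Agent.LibGlaub2

/-!
# The character correspondence for a cyclic group of operators (helper20)
-/

set_option autoImplicit false
set_option linter.all false

namespace CfsgLib.CycCorr

open Cfsg CfsgLib.CharBasic CfsgLib.Clifford CfsgLib.Gallagher CfsgLib.Extend CfsgLib.GalChar
open scoped Pointwise ComplexConjugate

universe u v w

section Coset
variable {Γ : Type u} [Group Γ] [Finite Γ] {G : Subgroup Γ} [hG : G.Normal] {x : Γ}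

omit hG in
theorem exists_power (hcop : (Nat.card G).Coprime (orderOf x)) : ∃ k : ℕ, x ^ k = x ∧ Nat.card G ∣ k := by
  obtain ⟨k, h1, h2⟩ := Nat.chineseRemainder hcop 0 1
  refine ⟨k, ?_, (Nat.modEq_zero_iff_dvd).mp h1⟩
  conv_rhs => rw [← pow_one x]
  rw [pow_eq_pow_iff_modEq]
  exact h2

/-- elements of the coset `G x` are conjugate under `G` to elements of `C_G(x) x` -/
theorem conj_coset (hcop : (Nat.card G).Coprime (orderOf x)) {g : Γ} (hg : g ∈ G) :
    ∃ a ∈ G, ∃ c ∈ G ⊓ Subgroup.centralizer ({x} : Set Γ), a * (g * x) * a⁻¹ = c * x := by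
  obtain ⟨k, hk1, hk2⟩ := exists_power hcop
  set y := g * x with hy
  set t := y ^ k with ht
  have hpowG : ∀ z ∈ G, z ^ k = 1 := by
    intro z hz
    obtain ⟨j, hj⟩ := hk2
    have h1 : (⟨z, hz⟩ : G) ^ Nat.card G = 1 := pow_card_eq_one'
    have h2 : z ^ Nat.card G = 1 := by
      calc z ^ Nat.card G = (((⟨z, hz⟩ : G) ^ Nat.card G : G) : Γ) := rfl
        _ = 1 := by rw [h1]; rfl
    rw [hj, pow_mul, h2, one_pow]
  have hmy : QuotientGroup.mk' G y = QuotientGroup.mk' G x := by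
    rw [hy, map_mul]
    have : QuotientGroup.mk' G g = 1 := (QuotientGroup.eq_one_iff g).mpr hg
    rw [this, one_mul]
  have hmt : QuotientGroup.mk' G t = QuotientGroup.mk' G x := by
    rw [ht, map_pow, hmy, ← map_pow, hk1]
  have ht1 : t ^ orderOf x = 1 := by
    rw [ht, ← pow_mul, mul_comm, pow_mul]
    apply hpowG
    rw [← QuotientGroup.eq_one_iff]
    have : QuotientGroup.mk' G (y ^ orderOf x) = 1 := by
      rw [map_pow, hmy, ← map_pow, pow_orderOf_eq_one, map_one]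
    exact this
  have hinf : ∀ z ∈ Subgroup.zpowers x, z ∈ G → z = 1 := by
    intro z hz hzG
    have h1 : orderOf z ∣ Nat.card G := by
      have := orderOf_dvd_natCard (⟨z, hzG⟩ : G)
      rwa [Subgroup.orderOf_mk] at this
    have h2 : orderOf z ∣ orderOf x := by
      rw [← Nat.card_zpowers x]
      have := orderOf_dvd_natCard (⟨z, hz⟩ : Subgroup.zpowers x)
      rwa [Subgroup.orderOf_mk] at this
    have h3 : orderOf z ∣ 1 := by
      rw [← hcop]; exact Nat.dvd_gcd h1 h2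
    exact orderOf_eq_one_iff.mp (Nat.dvd_one.mp h3)
  have ho : orderOf t = orderOf x := by
    apply Nat.dvd_antisymm (orderOf_dvd_of_pow_eq_one ht1)
    apply orderOf_dvd_of_pow_eq_one
    apply hinf _ (Subgroup.pow_mem _ (Subgroup.mem_zpowers x) _)
    rw [← QuotientGroup.eq_one_iff]
    have : QuotientGroup.mk' G (x ^ orderOf t) = 1 := by
      rw [map_pow, ← hmt, ← map_pow, pow_orderOf_eq_one, map_one]
    exact this
  have htx : t * x⁻¹ ∈ G := by
    rw [← QuotientGroup.eq_one_iff]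
    have : QuotientGroup.mk' G (t * x⁻¹) = 1 := by
      rw [map_mul, map_inv, hmt, mul_inv_cancel]
    exact this
  obtain ⟨n, hn, hconj⟩ := CfsgLib.Coprime.sz_conj (N := G) (H := Subgroup.zpowers x) (K := Subgroup.zpowers t)
    (by rw [Subgroup.normalizer_eq_top]; exact le_top) (by rw [Nat.card_zpowers]; exact hcop.symm)
    (Or.inl inferInstance) (by
      rw [Subgroup.zpowers_le]
      have : t = (t * x⁻¹) * x := by group
      rw [this]
      exact Subgroup.mul_mem_sup htx (Subgroup.mem_zpowers x))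
    (by rw [Nat.card_zpowers, Nat.card_zpowers, ho])
  have h1 : t ∈ MulAut.conj n • Subgroup.zpowers x := by rw [hconj]; exact Subgroup.mem_zpowers t
  rw [Subgroup.mem_smul_pointwise_iff_exists] at h1
  obtain ⟨z, hz, hzt⟩ := h1
  have hzt' : n * z * n⁻¹ = t := hzt
  have hzx : z = x := by
    have h2 : z * x⁻¹ = 1 := by
      apply hinf _ ((Subgroup.zpowers x).mul_mem hz ((Subgroup.zpowers x).inv_mem (Subgroup.mem_zpowers x)))
      rw [← QuotientGroup.eq_one_iff]
      have h3 : QuotientGroup.mk' G z = QuotientGroup.mk' G x := by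
        rw [← hmt, ← hzt', map_mul, map_mul]
        have : QuotientGroup.mk' G n = 1 := (QuotientGroup.eq_one_iff n).mpr hn
        rw [map_inv, this]; simp
      have : QuotientGroup.mk' G (z * x⁻¹) = 1 := by
        rw [map_mul, map_inv, h3, mul_inv_cancel]
      exact this
    exact mul_inv_eq_one.mp h2
  rw [hzx] at hzt'
  -- conjugate y by n⁻¹
  set y' := n⁻¹ * y * n with hy'
  have hy'k : y' ^ k = x := by
    have : y' ^ k = n⁻¹ * t * n := by
      rw [hy', ht]
      have := conj_pow (i := k) (a := n⁻¹) (b := y)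
      rw [inv_inv] at this
      exact this
    rw [this, ← hzt']; group
  have hcomm : Commute x y' := by
    rw [← hy'k]; exact Commute.pow_self y' k
  refine ⟨n⁻¹, G.inv_mem hn, y' * x⁻¹, Subgroup.mem_inf.mpr ⟨?_, ?_⟩, ?_⟩
  · have : QuotientGroup.mk' G (y' * x⁻¹) = 1 := by
      rw [hy', map_mul, map_mul, map_mul, map_inv, map_inv, hmy]
      have : QuotientGroup.mk' G n = 1 := (QuotientGroup.eq_one_iff n).mpr hn
      rw [this]; simp
    exact (QuotientGroup.eq_one_iff _).mp this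
  · rw [Subgroup.mem_centralizer_singleton_iff]
    exact ((hcomm.symm.mul_left (Commute.inv_left_iff.mpr (Commute.refl x))) : Commute (y' * x⁻¹) x)
  · rw [inv_inv, inv_mul_cancel_right]

omit hG in
theorem conj_fiber (hcop : (Nat.card G).Coprime (orderOf x)) {c c₀ u : Γ} (hc : c ∈ G ⊓ Subgroup.centralizer ({x} : Set Γ))
    (hc₀ : c₀ ∈ G ⊓ Subgroup.centralizer ({x} : Set Γ)) (h : u * (c * x) * u⁻¹ = c₀ * x) :
    u ∈ Subgroup.centralizer ({x} : Set Γ) ∧ u * c * u⁻¹ = c₀ := by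
  obtain ⟨k, hk1, hk2⟩ := exists_power hcop
  have hpowG : ∀ z ∈ G, z ^ k = 1 := by
    intro z hz
    obtain ⟨j, hj⟩ := hk2
    have h1 : (⟨z, hz⟩ : G) ^ Nat.card G = 1 := pow_card_eq_one'
    have h2 : z ^ Nat.card G = 1 := by
      calc z ^ Nat.card G = (((⟨z, hz⟩ : G) ^ Nat.card G : G) : Γ) := rfl
        _ = 1 := by rw [h1]; rfl
    rw [hj, pow_mul, h2, one_pow]
  have h1 : ∀ c ∈ G ⊓ Subgroup.centralizer ({x} : Set Γ), (c * x) ^ k = x := by
    intro c hc
    have h2 : Commute c x := Subgroup.mem_centralizer_singleton_iff.mp hc.2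
    rw [h2.mul_pow, hpowG c hc.1, hk1, one_mul]
  have h2 : u * x * u⁻¹ = x := by
    have h3 := congrArg (fun z => z ^ k) h
    simp only [conj_pow] at h3
    rwa [h1 c hc, h1 c₀ hc₀] at h3
  have h4 : u * x = x * u := by
    calc u * x = u * x * u⁻¹ * u := by group
      _ = x * u := by rw [h2]
  refine ⟨Subgroup.mem_centralizer_singleton_iff.mpr h4, ?_⟩
  have h5 : u * c * u⁻¹ * x = c₀ * x := by
    rw [← h]
    calc u * c * u⁻¹ * x = u * c * u⁻¹ * (u * x * u⁻¹) := by rw [h2]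
      _ = _ := by group
  exact mul_right_cancel h5

/-- averages over the coset `G x` are averages over `C_G(x) x` -/
theorem coset_sum [Fintype G] (hcop : (Nat.card G).Coprime (orderOf x)) (C : Subgroup Γ) [Fintype C]
    (hC : C = G ⊓ Subgroup.centralizer ({x} : Set Γ)) (f : Γ → ℂ) (hf : ∀ a ∈ G, ∀ z, f (a * z * a⁻¹) = f z) :
    (Nat.card G : ℂ)⁻¹ * ∑ g : G, f (g * x) = (Nat.card C : ℂ)⁻¹ * ∑ c : C, f (c * x) := by
  classical
  have hC' : ∀ c : C, (c : Γ) ∈ G ⊓ Subgroup.centralizer ({x} : Set Γ) := fun c => by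
    rw [← hC]; exact c.2
  have hF : ∀ p : G × C, (p.1 : Γ) * (p.2 * x) * (p.1 : Γ)⁻¹ * x⁻¹ ∈ G := by
    intro p
    have h1 : (p.1 : Γ) * (p.2 * x) * (p.1 : Γ)⁻¹ * x⁻¹ = (p.1 * p.2 : Γ) * (x * (p.1 : Γ)⁻¹ * x⁻¹) := by group
    rw [h1]
    exact G.mul_mem (G.mul_mem p.1.2 (hC' p.2).1) (hG.conj_mem _ (G.inv_mem p.1.2) x)
  let F : G × C → G := fun p => ⟨_, hF p⟩
  have hFx : ∀ p : G × C, (F p : Γ) * x = (p.1 : Γ) * (p.2 * x) * (p.1 : Γ)⁻¹ := fun p => by
    show (p.1 : Γ) * (p.2 * x) * (p.1 : Γ)⁻¹ * x⁻¹ * x = _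
    group
  have h1 : ∑ p : G × C, f (F p * x) = Nat.card G * ∑ c : C, f (c * x) := by
    rw [Fintype.sum_prod_type]
    have h2 : ∀ g : G, ∑ c : C, f (F (g, c) * x) = ∑ c : C, f (c * x) := by
      intro g
      refine Finset.sum_congr rfl fun c _ => ?_
      rw [hFx, hf _ g.2]
    rw [Finset.sum_congr rfl fun g _ => h2 g, Finset.sum_const, Finset.card_univ, nsmul_eq_mul, Nat.card_eq_fintype_card]
  have h3 : ∑ p : G × C, f (F p * x) = Nat.card C * ∑ g : G, f (g * x) := by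
    rw [← Finset.sum_fiberwise (s := Finset.univ) (g := F), Finset.mul_sum]
    refine Finset.sum_congr rfl fun y _ => ?_
    rw [Finset.sum_congr rfl (g := fun _ => f (y * x)) (fun p hp => by rw [(Finset.mem_filter.mp hp).2]), Finset.sum_const, nsmul_eq_mul]
    congr 2
    obtain ⟨a, ha, c₀, hc₀, hac⟩ := conj_coset hcop y.2
    rw [← Fintype.card_subtype, ← Nat.card_eq_fintype_card]
    symm
    apply Nat.card_congr
    refine ⟨fun u => ⟨(⟨a⁻¹ * u, G.mul_mem (G.inv_mem ha) (hC' u).1⟩,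
      ⟨(u : Γ)⁻¹ * c₀ * u, C.mul_mem (C.mul_mem (C.inv_mem u.2) (by rw [hC]; exact hc₀)) u.2⟩), ?_⟩,
      fun p => ⟨a * p.1.1, ?_⟩, fun u => ?_, fun p => ?_⟩
    · apply Subtype.ext
      apply mul_right_cancel (b := x)
      rw [hFx]
      have hux : (u : Γ) * x = x * u := Subgroup.mem_centralizer_singleton_iff.mp (hC' u).2
      show (a⁻¹ * (u : Γ)) * ((u : Γ)⁻¹ * c₀ * u * x) * (a⁻¹ * (u : Γ))⁻¹ = y * x
      calc (a⁻¹ * (u : Γ)) * ((u : Γ)⁻¹ * c₀ * u * x) * (a⁻¹ * (u : Γ))⁻¹ = a⁻¹ * c₀ * (u * x) * (u : Γ)⁻¹ * a := by group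
        _ = a⁻¹ * (c₀ * x) * a := by rw [hux]; group
        _ = y * x := by rw [← hac]; group
    · have h4 := hFx p.1
      rw [p.2] at h4
      have h5 : (a * p.1.1) * (p.1.2 * x) * (a * p.1.1)⁻¹ = c₀ * x := by
        rw [← hac, h4]; group
      exact (SetLike.ext_iff.mp hC _).mpr ⟨G.mul_mem ha p.1.1.2, (conj_fiber hcop (hC' p.1.2) hc₀ h5).1⟩
    · apply Subtype.ext
      show a * (a⁻¹ * (u : Γ)) = u
      group
    · apply Subtype.ext
      have h4 := hFx p.1
      rw [p.2] at h4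
      have h5 : (a * p.1.1) * (p.1.2 * x) * (a * p.1.1)⁻¹ = c₀ * x := by
        rw [← hac, h4]; group
      have h6 := (conj_fiber hcop (hC' p.1.2) hc₀ h5).2
      apply Prod.ext
      · apply Subtype.ext
        show a⁻¹ * (a * (p.1.1 : Γ)) = p.1.1
        group
      · apply Subtype.ext
        show (a * (p.1.1 : Γ))⁻¹ * c₀ * (a * p.1.1) = p.1.2
        rw [← h6]; group
  have hG0 : (Nat.card G : ℂ) ≠ 0 := by exact_mod_cast Nat.card_pos.ne'
  have hC0 : (Nat.card C : ℂ) ≠ 0 := by exact_mod_cast Nat.card_pos.ne'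
  rw [h1] at h3
  field_simp
  rw [mul_comm, ← h3, mul_comm]

end Coset

section Mult
variable {Γ : Type u} [Group Γ] [Finite Γ]

/-- multiplicity functions -/
noncomputable def mult (C : Subgroup Γ) [Fintype C] (χ : Γ → ℂ) (β : C → ℂ) (a : Γ) : ℂ :=
  (Nat.card C : ℂ)⁻¹ * ∑ c : C, χ ((c : Γ) * a) * conj (β c)

theorem mult_isCharacter (C S : Subgroup Γ) [Fintype C] (hcomm : ∀ c ∈ C, ∀ s ∈ S, c * s = s * c) {χ : Γ → ℂ} (hχ : IsCharacter Γ χ)
    {β : C → ℂ} (hβ : IsCharacter C β) : IsCharacter S (fun a : S => mult C χ β a) := by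
  classical
  haveI := Fintype.ofFinite S
  let f : C × S →* Γ := MonoidHom.noncommCoprod C.subtype S.subtype (fun c s => hcomm c c.2 s s.2)
  have hf : ∀ p : C × S, f p = (p.1 : Γ) * p.2 := fun p => rfl
  have hΨ : IsCharacter (C × S) (fun p => χ (f p) * conj (β p.1)) :=
    isCharacter_mul (isCharacter_comp hχ f) (isCharacter_conj (isCharacter_comp hβ (MonoidHom.fst C S)))
  set N : Subgroup (C × S) := (⊤ : Subgroup C).prod ⊥ with hN
  haveI : Fintype N := Fintype.ofFinite N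
  have h1 := CfsgLib.GalChar2.isCharacter_avg N hΨ
  have h2 := isCharacter_comp h1 (MonoidHom.inr C S)
  let e : C ≃ N :=
    { toFun := fun c => ⟨(c, 1), ⟨trivial, rfl⟩⟩
      invFun := fun n => n.1.1
      left_inv := fun c => rfl
      right_inv := fun n => Subtype.ext (Prod.ext rfl n.2.2.symm) }
  have h3 : (fun x => (Nat.card N : ℂ)⁻¹ * ∑ n : N, (fun p => χ (f p) * conj (β p.1)) (n * x)) ∘ (MonoidHom.inr C S) =
      fun a : S => mult C χ β a := by
    ext a
    unfold mult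
    rw [Function.comp_apply, ← Nat.card_congr e]
    congr 1
    symm
    refine Fintype.sum_equiv e _ _ fun c => ?_
    show χ ((c : Γ) * a) * conj (β c) = χ (((c * 1 : C) : Γ) * ((1 * a : S) : Γ)) * conj (β (c * 1))
    rw [mul_one, one_mul]
  rw [← h3]
  exact h2

theorem mult_one (C : Subgroup Γ) [Fintype C] (χ : Γ → ℂ) (β : C → ℂ) :
    mult C χ β 1 = classInner (fun c : C => χ c) β := by
  unfold mult classInner
  simp

end Mult

section Det
variable {G : Type u} [Group G] [Finite G]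

theorem detOrder_gal (τ : ℂ ≃+* ℂ) {χ : G → ℂ} (hχ : IsIrrCharacter G χ) : detOrder (τ ∘ χ) = detOrder χ := by
  have h0 := isIrrCharacter_gal τ hχ
  obtain ⟨n, ρ, hρ, rfl⟩ := hχ
  have h1 : (galRep τ ρ).character = τ ∘ ρ.character := by
    ext g; exact character_galRep τ ρ g
  haveI : (galRep τ ρ).IsIrreducible := isIrreducible_of_char _ (by rw [h1]; exact h0)
  have h2 : detChar (τ ∘ ρ.character) = fun g => τ (LinearMap.det (ρ g)) := by
    rw [← h1, detChar_eq]
    ext g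
    have h5 : galRep τ ρ g = Matrix.toLin' ((LinearMap.toMatrix' (ρ g)).map τ) := rfl
    rw [h5, LinearMap.det_toLin', ← LinearMap.det_toMatrix']
    rw [← RingEquiv.coe_toRingHom τ, RingHom.map_det]
    rfl
  unfold detOrder
  rw [h2, detChar_eq]
  apply Nat.dvd_antisymm
  · apply orderOf_dvd_of_pow_eq_one
    ext g
    have h3 := congrFun (pow_orderOf_eq_one (fun g => LinearMap.det (ρ g))) g
    rw [Pi.pow_apply, Pi.one_apply] at h3 ⊢
    rw [← map_pow, h3, map_one]
  · apply orderOf_dvd_of_pow_eq_one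
    ext g
    have h3 := congrFun (pow_orderOf_eq_one (fun g => τ (LinearMap.det (ρ g)))) g
    rw [Pi.pow_apply, Pi.one_apply] at h3 ⊢
    rw [← map_pow] at h3
    apply τ.injective
    rw [h3, map_one]

end Det

section Canon
variable {Γ : Type u} [Group Γ] [Fintype Γ] {G S : Subgroup Γ} [hG : G.Normal] [Fintype G]
  (hcop : (Nat.card G).Coprime (Nat.card S)) (htop : G ⊔ S = ⊤)

omit [Fintype Γ] [Fintype G] in
include hcop htop in
theorem index_eq [Finite Γ] : G.index = Nat.card S := by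
  have h1 : S ⊓ G = ⊥ := by
    rw [inf_comm]; exact Subgroup.inf_eq_bot_of_coprime hcop
  rw [← Subgroup.relIndex_top_right, ← htop, sup_comm, Subgroup.relIndex_sup_right, CfsgLib.Coprime.relIndex_eq_card_of_inf_eq_bot h1]

omit [Fintype Γ] [Fintype G] in
include hcop htop in
theorem cop_deg [Finite Γ] [Fintype G] {χ : G → ℂ} (hχ : IsIrrCharacter G χ) {d : ℕ} (hd : χ 1 = d) : Nat.Coprime G.index (detOrder χ * d) := by
  rw [index_eq hcop htop]
  apply Nat.Coprime.symm
  apply Nat.Coprime.mul_left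
  · exact Nat.Coprime.coprime_dvd_left (detOrder_dvd_card hχ) hcop
  · exact Nat.Coprime.coprime_dvd_left (degree_dvd_card hχ hd) hcop

include hcop htop in
/-- existence of the canonical extension -/
theorem canon_exists {χ : G → ℂ} (hχ : IsIrrCharacter G χ) (hinv : Inv G χ) :
    ∃ χh : Γ → ℂ, IsIrrCharacter Γ χh ∧ (∀ g : G, χh g = χ g) ∧ (detOrder χh).Coprime (Nat.card S) := by
  obtain ⟨d, -, hd⟩ := irr_one_nat hχ
  have h1 := cop_deg hcop htop hχ hd
  obtain ⟨χh, ⟨h2, h3, h4⟩, -⟩ := ext_coprime hχ hinv d hd h1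
  refine ⟨χh, h2, h3, ?_⟩
  rw [h4, ← index_eq hcop htop]
  exact (Nat.Coprime.coprime_mul_right_right h1).symm

include hcop htop in
theorem canon_unique {χ : G → ℂ} (hχ : IsIrrCharacter G χ) {χh χh' : Γ → ℂ}
    (h1 : IsIrrCharacter Γ χh) (h2 : ∀ g : G, χh g = χ g) (h3 : (detOrder χh).Coprime (Nat.card S))
    (h1' : IsIrrCharacter Γ χh') (h2' : ∀ g : G, χh' g = χ g) (h3' : (detOrder χh').Coprime (Nat.card S)) : χh = χh' := by
  obtain ⟨d, -, hd⟩ := irr_one_nat hχ
  have hinv : Inv G χ := by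
    intro x g
    rw [← h2, ← h2]
    exact irr_classFun h1 g x
  have h4 := cop_deg hcop htop hχ hd
  obtain ⟨χ₀, -, h5⟩ := ext_coprime hχ hinv d hd h4
  rw [h5 χh h1 h2 (by rw [index_eq hcop htop]; exact h3.symm), h5 χh' h1' h2' (by rw [index_eq hcop htop]; exact h3'.symm)]

variable {χ : G → ℂ} (hχ : IsIrrCharacter G χ) {χh : Γ → ℂ} (hχh : IsIrrCharacter Γ χh) (hext : ∀ g : G, χh g = χ g)
  (hdet : (detOrder χh).Coprime (Nat.card S))

include hcop htop hχ hχh hext hdet in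
/-- the canonical extension is fixed by automorphisms fixing the `|G|`-th roots of unity -/
theorem canon_gal (τ : ℂ ≃+* ℂ) (hτ : ∀ ζ : ℂ, ζ ^ Nat.card G = 1 → τ ζ = ζ) (g : Γ) : τ (χh g) = χh g := by
  have h1 : ∀ g : G, τ (χ g) = χ g := by
    intro g
    rw [← CfsgLib.GalCliff.char_gal_pow (σ := τ) (n := Nat.card G) (k := 1) (fun ζ hζ => by rw [hτ ζ hζ, pow_one]) dvd_rfl (irr_isCharacter hχ) g,
      pow_one]
  have h2 := canon_unique hcop htop hχ (isIrrCharacter_gal τ hχh) (fun g => by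
    rw [Function.comp_apply, hext, h1]) (by rw [detOrder_gal τ hχh]; exact hdet) hχh hext hdet
  exact congrFun h2 g

include hcop htop hχ hχh hext hdet in
/-- the multiplicities are rational integers -/
theorem mult_int (C : Subgroup Γ) [Fintype C] (hCG : C ≤ G) (hcomm : ∀ c ∈ C, ∀ s ∈ S, c * s = s * c) {β : C → ℂ} (hβ : IsIrrCharacter C β)
    (a : Γ) (ha : a ∈ S) : ∃ z : ℤ, mult C χh β a = z := by
  haveI := Fintype.ofFinite S
  set A : S → ℂ := fun a : S => mult C χh β a with hA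
  have hAc : IsCharacter S A := mult_isCharacter C S hcomm (irr_isCharacter hχh) (irr_isCharacter hβ)
  have hcardG : Nat.card G ∣ Nat.card Γ := Subgroup.card_subgroup_dvd_card G
  have hcardS : Nat.card S ∣ Nat.card Γ := Subgroup.card_subgroup_dvd_card S
  have hcardΓ : Nat.card Γ = Nat.card G * Nat.card S := by
    rw [← index_eq hcop htop, Subgroup.card_mul_index]
  apply exists_int_of_fixed (char_isIntegral hAc ⟨a, ha⟩)
  intro σ
  obtain ⟨k, hk, hk2⟩ := exists_coprime_of_gal S σ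
  obtain ⟨k', h1, h2⟩ := Nat.chineseRemainder hcop 1 k
  have hk' : k'.Coprime (Nat.card Γ) := by
    rw [hcardΓ]
    apply Nat.Coprime.mul_right
    · have := h1.gcd_eq
      rw [Nat.Coprime, this]; simp
    · have := h2.gcd_eq
      rw [Nat.Coprime, this]; exact hk
  obtain ⟨τ, hτ⟩ := CfsgLib.GalCliff.exists_gal_pow hk'
  have hτG : ∀ ζ : ℂ, ζ ^ Nat.card G = 1 → τ ζ = ζ := by
    intro ζ hζ
    have h3 : ζ ^ Nat.card Γ = 1 := by rw [hcardΓ, pow_mul, hζ, one_pow]
    rw [hτ ζ h3]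
    have h4 : orderOf ζ ∣ Nat.card G := orderOf_dvd_of_pow_eq_one hζ
    conv_rhs => rw [← pow_one ζ]
    have h5 : ζ ≠ 0 := by
      rintro rfl
      rw [zero_pow Nat.card_pos.ne'] at hζ
      exact zero_ne_one hζ
    have h6 := (Units.mk0 ζ h5)
    have h7 : (Units.mk0 ζ h5) ^ k' = (Units.mk0 ζ h5) ^ 1 := by
      rw [pow_eq_pow_iff_modEq]
      apply h1.of_dvd
      rw [← orderOf_units]
      exact h4
    have h8 := congrArg (fun u : ℂˣ => (u : ℂ)) h7
    simpa using h8
  have h3 : A (⟨a, ha⟩ ^ k) = A (⟨a, ha⟩ ^ k') := by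
    congr 1
    rw [pow_eq_pow_iff_modEq]
    exact (h2.of_dvd (orderOf_dvd_natCard (⟨a, ha⟩ : S))).symm
  have h4 : A (⟨a, ha⟩ ^ k') = τ (A ⟨a, ha⟩) := CfsgLib.GalCliff.char_gal_pow hτ hcardS hAc _
  have h5 : τ (A ⟨a, ha⟩) = A ⟨a, ha⟩ := by
    simp only [hA]
    unfold mult
    rw [map_mul, map_inv₀, map_natCast, map_sum]
    congr 1
    refine Finset.sum_congr rfl fun c _ => ?_
    rw [map_mul, canon_gal hcop htop hχ hχh hext hdet τ hτG]
    congr 1
    have h6 := CfsgLib.GalCliff.char_gal_pow (σ := τ) (n := Nat.card G) (k := 1) (fun ζ hζ => by rw [hτG ζ hζ, pow_one])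
      (Subgroup.card_dvd_of_le hCG) (isCharacter_conj (irr_isCharacter hβ)) c
    rw [pow_one] at h6
    exact h6.symm
  rw [← hk2 A hAc, h3, h4, h5]

omit hcop htop hdet in
include hχ hχh hext in
/-- norm one -/
theorem norm_one (x : Γ) (hcx : (Nat.card G).Coprime (orderOf x)) (C : Subgroup Γ) [Fintype C] (hC : C = G ⊓ Subgroup.centralizer ({x} : Set Γ)) :
    ∑ β : IrrCharacter C, mult C χh (β : C → ℂ) x * conj (mult C χh (β : C → ℂ) x) = 1 := by
  have hCx : ∀ c : C, (c : Γ) * x = x * c := fun c => by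
    have : (c : Γ) ∈ G ⊓ Subgroup.centralizer ({x} : Set Γ) := by rw [← hC]; exact c.2
    exact Subgroup.mem_centralizer_singleton_iff.mp this.2
  have hcf : IsClassFunction C (fun c : C => χh (c * x)) := by
    intro c d
    have h1 := irr_classFun hχh ((c : Γ) * x) d
    have h2 : ((d * c * d⁻¹ : C) : Γ) * x = (d : Γ) * ((c : Γ) * x) * (d : Γ)⁻¹ := by
      show (d : Γ) * c * (d : Γ)⁻¹ * x = _
      have h3 : (d : Γ)⁻¹ * x = x * (d : Γ)⁻¹ := hCx d⁻¹
      rw [mul_assoc _ (d : Γ)⁻¹ x, h3]; group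
    show χh (((d * c * d⁻¹ : C) : Γ) * x) = χh ((c : Γ) * x)
    rw [h2]; exact h1
  have h1 := parseval hcf hcf
  have h2 : classInner (fun c : C => χh (c * x)) (fun c : C => χh (c * x)) = 1 := by
    have h3 := coset_sum (G := G) hcx C hC (fun z => χh z * conj (χh z)) (fun a _ z => by
      show χh (a * z * a⁻¹) * conj (χh (a * z * a⁻¹)) = χh z * conj (χh z)
      rw [irr_classFun hχh z a])
    have h4 : IsIrrCharacter G (fun g : G => χh g) := by
      have : (fun g : G => χh g) = χ := funext hext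
      rw [this]; exact hχ
    have h5 := congrFun (avg_norm_sq G (irr_isCharacter hχh) h4) x
    unfold avg at h5
    unfold classInner
    rw [← h3]
    exact h5
  rw [h2] at h1
  exact h1.symm

include hcop htop hχ hχh hext hdet in
/-- the correspondent at an element `x` of `S` -/
theorem exists_beta (x : Γ) (hx : x ∈ S) (C : Subgroup Γ) [Fintype C] (hCG : C ≤ G) (hcomm : ∀ c ∈ C, ∀ s ∈ S, c * s = s * c)
    (hC : C = G ⊓ Subgroup.centralizer ({x} : Set Γ)) :
    ∃ (β : IrrCharacter C) (ε : ℤ), (ε = 1 ∨ ε = -1) ∧ mult C χh (β : C → ℂ) x = ε ∧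
      (∀ β' : IrrCharacter C, β' ≠ β → mult C χh (β' : C → ℂ) x = 0) ∧ ∀ c : C, χh (c * x) = ε * (β : C → ℂ) c := by
  classical
  have hcx : (Nat.card G).Coprime (orderOf x) := by
    apply Nat.Coprime.coprime_dvd_right _ hcop
    have := orderOf_dvd_natCard (⟨x, hx⟩ : S)
    rwa [Subgroup.orderOf_mk] at this
  choose z hz using fun β : IrrCharacter C => mult_int hcop htop hχ hχh hext hdet C hCG hcomm β.2 x hx
  have h1 := norm_one hχ hχh hext x hcx C hC
  have h2 : ∑ β : IrrCharacter C, z β ^ 2 = 1 := by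
    have h3 : ((∑ β : IrrCharacter C, z β ^ 2 : ℤ) : ℂ) = 1 := by
      rw [← h1]
      push_cast
      refine Finset.sum_congr rfl fun β _ => ?_
      rw [hz, map_intCast]; ring
    exact_mod_cast h3
  obtain ⟨β, hβ⟩ : ∃ β, z β ≠ 0 := by
    by_contra hcon
    push Not at hcon
    simp [hcon] at h2
  have h3 : z β ^ 2 + ∑ γ ∈ Finset.univ.erase β, z γ ^ 2 = 1 := by
    rw [Finset.add_sum_erase _ (fun γ => z γ ^ 2) (Finset.mem_univ β), h2]
  have h4 : 1 ≤ z β ^ 2 := by
    have : 0 < z β ^ 2 := by positivity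
    omega
  have h5 : 0 ≤ ∑ γ ∈ Finset.univ.erase β, z γ ^ 2 := Finset.sum_nonneg fun j _ => sq_nonneg _
  have h6 : ∑ γ ∈ Finset.univ.erase β, z γ ^ 2 = 0 := by omega
  have h7 := (Finset.sum_eq_zero_iff_of_nonneg fun j _ => sq_nonneg (z j)).mp h6
  have h8 : ∀ γ, γ ≠ β → z γ = 0 := fun γ hγ => pow_eq_zero_iff two_ne_zero |>.mp (h7 γ (Finset.mem_erase.mpr ⟨hγ, Finset.mem_univ _⟩))
  have h9 : z β = 1 ∨ z β = -1 := by
    have h10 : z β ^ 2 = 1 := by omega
    have h11 : (z β - 1) * (z β + 1) = 0 := by linear_combination h10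
    rcases mul_eq_zero.mp h11 with h | h
    · left; omega
    · right; omega
  have hCx : ∀ c : C, (c : Γ) * x = x * c := fun c => by
    have : (c : Γ) ∈ G ⊓ Subgroup.centralizer ({x} : Set Γ) := by rw [← hC]; exact c.2
    exact Subgroup.mem_centralizer_singleton_iff.mp this.2
  have hcf : IsClassFunction C (fun c : C => χh (c * x)) := by
    intro c d
    have h1 := irr_classFun hχh ((c : Γ) * x) d
    have h2 : ((d * c * d⁻¹ : C) : Γ) * x = (d : Γ) * ((c : Γ) * x) * (d : Γ)⁻¹ := by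
      show (d : Γ) * c * (d : Γ)⁻¹ * x = _
      have h3 : (d : Γ)⁻¹ * x = x * (d : Γ)⁻¹ := hCx d⁻¹
      rw [mul_assoc _ (d : Γ)⁻¹ x, h3]; group
    show χh (((d * c * d⁻¹ : C) : Γ) * x) = χh ((c : Γ) * x)
    rw [h2]; exact h1
  refine ⟨β, z β, h9, hz β, fun β' hβ' => by rw [hz, h8 β' hβ', Int.cast_zero], fun c => ?_⟩
  have h10 := classFun_expand_apply hcf c
  rw [h10, Finset.sum_eq_single β]
  · have : classInner (fun c : C => χh (c * x)) (β : C → ℂ) = z β := hz β
    rw [this]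
  · intro γ _ hγ
    have : classInner (fun c : C => χh (c * x)) (γ : C → ℂ) = z γ := hz γ
    rw [this, h8 γ hγ, Int.cast_zero, zero_mul]
  · intro h; exact absurd (Finset.mem_univ _) h

end Canon

end CfsgLib.CycCorr
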