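import Mathlib

/-! Operators with irreducible minimal polynomial of maximal degree: the commutant is a field. -/

namespace CfsgLib.Cyc

open Module Polynomial

variable {F V : Type*} [Field F] [AddCommGroup V] [Module F V]

/-- The action of `F[X]/(μ)` on `V` when `μ(T) = 0`. -/
noncomputable def act (T : End F V) (μ : F[X]) (h : aeval T μ = 0) : AdjoinRoot μ →ₐ[F] End F V :=
  Ideal.Quotient.liftₐ (Ideal.span {μ}) (aeval T) (by
    intro a ha
    rw [Ideal.mem_span_singleton] at ha
    obtain ⟨b, rfl⟩ := ha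
    rw [map_mul, h, zero_mul])

theorem act_mk (T : End F V) (μ : F[X]) (h : aeval T μ = 0) (g : F[X]) : act T μ h (AdjoinRoot.mk μ g) = aeval T g := rfl

theorem act_root (T : End F V) (μ : F[X]) (h : aeval T μ = 0) : act T μ h (AdjoinRoot.root μ) = T := by
  show act T μ h (AdjoinRoot.mk μ X) = T
  rw [act_mk, aeval_X]

theorem act_comm (T : End F V) (μ : F[X]) (h : aeval T μ = 0) (k : AdjoinRoot μ) : Commute (act T μ h k) T := by
  have h1 : act T μ h k * act T μ h (AdjoinRoot.root μ) = act T μ h (AdjoinRoot.root μ) * act T μ h k := by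
    rw [← map_mul, mul_comm, map_mul]
  rw [act_root] at h1
  exact h1

theorem comm_act (T : End F V) (μ : F[X]) (h : aeval T μ = 0) (k : AdjoinRoot μ) {S : End F V} (hS : Commute S T) : Commute S (act T μ h k) := by
  obtain ⟨g, rfl⟩ := AdjoinRoot.mk_surjective k
  rw [act_mk]
  induction g using Polynomial.induction_on' with
  | add p q hp hq => rw [map_add]; exact hp.add_right hq
  | monomial n a =>
    rw [aeval_monomial]
    exact (show Commute S (algebraMap F (End F V) a) from (Algebra.commutes a S).symm).mul_right (hS.pow_right n)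

section irred

variable [FiniteDimensional F V] (T : End F V) {μ : F[X]} (h : aeval T μ = 0) (hμ : Irreducible μ)

include hμ in
theorem act_isUnit {k : AdjoinRoot μ} (hk : k ≠ 0) : IsUnit (act T μ h k) := by
  haveI : Fact (Irreducible μ) := ⟨hμ⟩
  exact (IsUnit.mk0 k hk).map (act T μ h)

include hμ in
theorem act_apply_ne {k : AdjoinRoot μ} (hk : k ≠ 0) {v : V} (hv : v ≠ 0) : act T μ h k v ≠ 0 := by
  have h1 := act_isUnit T h hμ hk
  rw [Module.End.isUnit_iff] at h1
  intro h2
  exact hv (h1.1 (by rw [h2, map_zero]))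

include hμ in
/-- evaluation at a non-zero vector is bijective when `deg μ = dim V` -/
theorem eval_bijective (hd : μ.natDegree = finrank F V) {v : V} (hv : v ≠ 0) :
    Function.Bijective (fun k : AdjoinRoot μ => act T μ h k v) := by
  haveI : Fact (Irreducible μ) := ⟨hμ⟩
  let e : AdjoinRoot μ →ₗ[F] V := (LinearMap.applyₗ v).comp (act T μ h).toLinearMap
  have he : ∀ k, e k = act T μ h k v := fun k => rfl
  have hinj : Function.Injective e := by
    rw [← LinearMap.ker_eq_bot, LinearMap.ker_eq_bot']
    intro k hk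
    by_contra hk0
    exact act_apply_ne T h hμ hk0 hv hk
  have hf : finrank F (AdjoinRoot μ) = finrank F V := by
    rw [← hd]
    exact (AdjoinRoot.powerBasis hμ.ne_zero).finrank
  haveI : FiniteDimensional F (AdjoinRoot μ) := (AdjoinRoot.powerBasis hμ.ne_zero).finite
  exact ⟨hinj, (LinearMap.injective_iff_surjective_of_finrank_eq_finrank hf).mp hinj⟩

include hμ in
theorem exists_act (hd : μ.natDegree = finrank F V) [Nontrivial V] {S : End F V} (hS : Commute S T) : ∃ k, S = act T μ h k := by
  obtain ⟨v, hv⟩ := exists_ne (0 : V)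
  obtain ⟨k, hk⟩ := (eval_bijective T h hμ hd hv).2 (S v)
  refine ⟨k, ?_⟩
  ext w
  obtain ⟨l, rfl⟩ := (eval_bijective T h hμ hd hv).2 w
  simp only at hk ⊢
  rw [← Module.End.mul_apply, (comm_act T μ h l hS).eq, Module.End.mul_apply, ← hk, ← Module.End.mul_apply, ← Module.End.mul_apply,
    ← map_mul, ← map_mul, mul_comm]

include hμ in
theorem act_injective [Nontrivial V] : Function.Injective (act T μ h) := by
  haveI : Fact (Irreducible μ) := ⟨hμ⟩
  exact (act T μ h).toRingHom.injective

end irred

/-- The minimal polynomial of an operator of prime order `r` (prime to the characteristic), when `|F|` has order `dim V` mod `r`. -/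
theorem minpoly_irreducible [Fintype F] [FiniteDimensional F V] {r : ℕ} (hr : r.Prime) (hr0 : (r : F) ≠ 0) (T : End F V) (hT : T ^ r = 1) (hT1 : T ≠ 1)
    (hi : orderOf (Fintype.card F : ZMod r) = finrank F V) : Irreducible (minpoly F T) ∧ (minpoly F T).natDegree = finrank F V := by
  classical
  haveI : Fact r.Prime := ⟨hr⟩
  set μ := minpoly F T with hμd
  have hint : IsIntegral F T := Algebra.IsIntegral.isIntegral T
  have hμ0 : μ ≠ 0 := minpoly.ne_zero hint
  set Φ : F[X] := ∑ i ∈ Finset.range r, X ^ i with hΦ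
  have hmul : (X - 1) * Φ = X ^ r - 1 := by rw [hΦ, mul_comm]; exact geom_sum_mul X r
  have hdvd : μ ∣ (X - 1) * Φ := by
    rw [hmul]
    apply minpoly.dvd
    rw [map_sub, map_pow, aeval_X, map_one, hT, sub_self]
  have hncop : ¬ IsCoprime μ Φ := by
    intro hc
    have h1 : μ ∣ X - 1 := hc.dvd_of_dvd_mul_right hdvd
    obtain ⟨b, hb⟩ := h1
    have : aeval T (X - 1 : F[X]) = 0 := by rw [hb, map_mul, minpoly.aeval, zero_mul]
    rw [map_sub, aeval_X, map_one, sub_eq_zero] at this
    exact hT1 this
  obtain ⟨f, hf1, hf2, hf3⟩ : ∃ f, Irreducible f ∧ f ∣ μ ∧ f ∣ Φ := by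
    have h1 : ¬ IsUnit (EuclideanDomain.gcd μ Φ) := by
      rwa [EuclideanDomain.gcd_isUnit_iff]
    have h0 : EuclideanDomain.gcd μ Φ ≠ 0 := by
      intro h; rw [EuclideanDomain.gcd_eq_zero_iff] at h; exact hμ0 h.1
    obtain ⟨f, hf, hfd⟩ := WfDvdMonoid.exists_irreducible_factor h1 h0
    exact ⟨f, hf, hfd.trans (EuclideanDomain.gcd_dvd_left _ _), hfd.trans (EuclideanDomain.gcd_dvd_right _ _)⟩
  haveI : Fact (Irreducible f) := ⟨hf1⟩
  haveI : FiniteDimensional F (AdjoinRoot f) := (AdjoinRoot.powerBasis hf1.ne_zero).finite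
  haveI : Finite (AdjoinRoot f) := Module.finite_of_finite F
  haveI : Fintype (AdjoinRoot f) := Fintype.ofFinite _
  set α := AdjoinRoot.root f with hα
  have hev : ∀ g : F[X], f ∣ g → aeval α g = 0 := by
    intro g hg
    rw [AdjoinRoot.aeval_eq, AdjoinRoot.mk_eq_zero]; exact hg
  have hα1 : α ≠ 1 := by
    intro h
    have h1 := hev Φ hf3
    rw [h, hΦ, map_sum] at h1
    simp only [map_pow, aeval_X, one_pow, Finset.sum_const, Finset.card_range, nsmul_eq_mul, mul_one] at h1
    have h2 : algebraMap F (AdjoinRoot f) (r : F) = 0 := by rw [map_natCast]; exact h1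
    exact hr0 ((map_eq_zero _).mp h2)
  have hαr : α ^ r = 1 := by
    have h1 := hev (X ^ r - 1) (by rw [← hmul]; exact hf3.mul_left _)
    rw [map_sub, map_pow, aeval_X, map_one, sub_eq_zero] at h1
    exact h1
  have hord : orderOf α = r := orderOf_eq_prime hαr hα1
  have hα0 : α ≠ 0 := by
    intro h; rw [h, zero_pow hr.ne_zero] at hαr; exact zero_ne_one hαr
  have hcard : Fintype.card (AdjoinRoot f) = Fintype.card F ^ f.natDegree := by
    rw [Module.card_eq_pow_finrank (K := F)]
    congr 1
    exact (AdjoinRoot.powerBasis hf1.ne_zero).finrank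
  have hrd : r ∣ Fintype.card F ^ f.natDegree - 1 := by
    rw [← hord, ← hcard]
    exact orderOf_dvd_of_pow_eq_one (FiniteField.pow_card_sub_one_eq_one α hα0)
  have hn : finrank F V ∣ f.natDegree := by
    rw [← hi]
    apply orderOf_dvd_of_pow_eq_one
    have h1 : 1 ≤ Fintype.card F ^ f.natDegree := Nat.one_le_pow _ _ Fintype.card_pos
    have h2 : ((Fintype.card F ^ f.natDegree - 1 : ℕ) : ZMod r) = 0 := by
      rw [ZMod.natCast_eq_zero_iff]; exact hrd
    rw [Nat.cast_sub h1] at h2
    push_cast at h2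
    exact sub_eq_zero.mp h2
  have hfd : 0 < f.natDegree := hf1.natDegree_pos
  have hμle : μ.natDegree ≤ finrank F V := by
    rw [← LinearMap.charpoly_natDegree T]
    exact natDegree_le_of_dvd (LinearMap.minpoly_dvd_charpoly T) (LinearMap.charpoly_monic T).ne_zero
  have hfle : f.natDegree ≤ μ.natDegree := natDegree_le_of_dvd hf2 hμ0
  have hnle := Nat.le_of_dvd hfd hn
  have hassoc : Associated f μ := by
    obtain ⟨b, hb⟩ := hf2
    have hb0 : b ≠ 0 := by rintro rfl; rw [mul_zero] at hb; exact hμ0 hb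
    have : b.natDegree = 0 := by
      have h1 : μ.natDegree = f.natDegree + b.natDegree := by
        conv_lhs => rw [hb]
        exact natDegree_mul hf1.ne_zero hb0
      omega
    have hbu : IsUnit b := by
      rw [Polynomial.isUnit_iff_degree_eq_zero, degree_eq_natDegree hb0, this]; rfl
    exact ⟨hbu.unit, hb.symm⟩
  exact ⟨hassoc.irreducible hf1, by omega⟩

end CfsgLib.Cyc
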