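import Cfsg.Agent.LibQForm27
import Cfsg.Agent.LibSemi27

set_option autoImplicit false

/-! Descent of quadratic forms to the fixed field. -/

namespace CfsgLib.Desc27

open Cfsg.Agent.H22 CfsgLib.QForm27 CfsgLib.Semi27 CfsgLib.H9027 Module Matrix

variable {F : Type*} [Field F] {ι : Type} [Fintype ι] [DecidableEq ι] {σ : F ≃+* F}

/-- rational vectors -/
def jv (σ : F ≃+* F) (x : ι → fixF σ) : ι → F := fun i => (x i : F)

theorem jv_add (x y : ι → fixF σ) : jv σ (x + y) = jv σ x + jv σ y := rfl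

theorem jv_smul (c : fixF σ) (x : ι → fixF σ) : jv σ (c • x) = (c : F) • jv σ x := rfl

theorem jv_single (i : ι) : jv σ (Pi.single i 1 : ι → fixF σ) = Pi.single i 1 := by
  ext k
  unfold jv
  by_cases h : k = i
  · subst h; simp
  · simp [h]

theorem jv_fixed (x : ι → fixF σ) : σ ∘ jv σ x = jv σ x := by
  ext i
  exact (x i).2

theorem jv_inj {x y : ι → fixF σ} (h : jv σ x = jv σ y) : x = y := by
  ext i
  exact congrFun h i

theorem qf_ext_rational {D D' : QuadraticForm F (ι → F)} (h : ∀ x : ι → fixF σ, D (jv σ x) = D' (jv σ x)) : D = D' := by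
  apply qf_ext (Pi.basisFun F ι)
  · intro i
    rw [Pi.basisFun_apply, ← jv_single (σ := σ), h]
  · intro i j
    rw [Pi.basisFun_apply, Pi.basisFun_apply, ← jv_single (σ := σ) i, ← jv_single (σ := σ) j]
    unfold QuadraticMap.polar
    rw [← jv_add, h, h, h]

/-- descent of a form commuting with `σ` -/
theorem descend_qf (D : QuadraticForm F (ι → F)) (hD : ∀ v, D (σ ∘ v) = σ (D v)) :
    ∃ D₀ : QuadraticForm (fixF σ) (ι → fixF σ), ∀ x, (D₀ x : F) = D (jv σ x) := by
  have hfix : ∀ x : ι → fixF σ, D (jv σ x) ∈ fixF σ := by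
    intro x
    rw [mem_fixF, ← hD, jv_fixed]
  let f : (ι → fixF σ) → fixF σ := fun x => ⟨D (jv σ x), hfix x⟩
  have hpol : ∀ x y, ((QuadraticMap.polar f x y : fixF σ) : F) = QuadraticMap.polar D (jv σ x) (jv σ y) := by
    intro x y
    unfold QuadraticMap.polar
    show D (jv σ (x + y)) - D (jv σ x) - D (jv σ y) = _
    rw [jv_add]
  refine ⟨QuadraticMap.ofPolar f ?_ ?_ ?_, fun x => rfl⟩
  · intro a x
    apply Subtype.ext
    show D (jv σ (a • x)) = (a : F) * (a : F) * D (jv σ x)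
    rw [jv_smul, QuadraticMap.map_smul]; rfl
  · intro x x' y
    apply Subtype.ext
    show ((QuadraticMap.polar f (x + x') y : fixF σ) : F) = (QuadraticMap.polar f x y : fixF σ) + (QuadraticMap.polar f x' y : fixF σ)
    rw [hpol, hpol, hpol, jv_add, QuadraticMap.polar_add_left]
  · intro a x y
    apply Subtype.ext
    show ((QuadraticMap.polar f (a • x) y : fixF σ) : F) = (a : F) * (QuadraticMap.polar f x y : fixF σ)
    rw [hpol, hpol, jv_smul, QuadraticMap.polar_smul_left, smul_eq_mul]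

theorem descend_nondeg {D : QuadraticForm F (ι → F)} {D₀ : QuadraticForm (fixF σ) (ι → fixF σ)} (h : ∀ x, (D₀ x : F) = D (jv σ x))
    (hD : (QuadraticMap.polarBilin D).Nondegenerate) : (QuadraticMap.polarBilin D₀).Nondegenerate := by
  have hp : ∀ x y, ((QuadraticMap.polar D₀ x y : fixF σ) : F) = QuadraticMap.polar D (jv σ x) (jv σ y) := by
    intro x y
    unfold QuadraticMap.polar
    rw [← jv_add, ← h, ← h, ← h]; rfl
  apply nondeg_of_left
  intro x hx
  apply jv_inj (σ := σ)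
  have h0 : jv σ (0 : ι → fixF σ) = 0 := rfl
  rw [h0]
  apply hD.1
  have h3 : QuadraticMap.polarBilin D (jv σ x) = 0 := by
    apply (Pi.basisFun F ι).ext
    intro i
    rw [Pi.basisFun_apply, ← jv_single (σ := σ)]
    show QuadraticMap.polar D (jv σ x) (jv σ _) = 0
    rw [← hp, hx]; rfl
  intro y
  rw [h3]; rfl

/-- general descent statement for a twisted form -/
theorem hform_gen [Nonempty ι] {Q : QuadraticForm F (ι → F)} (hQ : (QuadraticMap.polarBilin Q).Nondegenerate) (hσ : ∀ v, Q (σ ∘ v) = σ (Q v))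
    {g : GL ι F} {μ : Fˣ} (hg : ∀ v, Q ((g : Matrix ι ι F) *ᵥ v) = μ * Q v) {l : Fˣ} {k : GL ι F} (hk : g * gm σ k = scal l * k) :
    ∃ (a : F) (D₀ : QuadraticForm (fixF σ) (ι → fixF σ)), a ≠ 0 ∧ (QuadraticMap.polarBilin D₀).Nondegenerate ∧
      (μ : F) * σ a = (l : F) * (l : F) * a ∧ ∀ x, Q ((k : Matrix ι ι F) *ᵥ jv σ x) = a * (D₀ x : F) := by
  let C : QuadraticForm F (ι → F) := Q.comp (Matrix.toLin' (k : Matrix ι ι F))
  have hC : ∀ x, C x = Q ((k : Matrix ι ι F) *ᵥ x) := fun _ => rfl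
  have hkinv : ∀ y : ι → F, (k : Matrix ι ι F) *ᵥ (((k⁻¹ : GL ι F) : Matrix ι ι F) *ᵥ y) = y := by
    intro y
    rw [mulVec_mulVec, Units.mul_inv, one_mulVec]
  have hkinv' : ∀ y : ι → F, ((k⁻¹ : GL ι F) : Matrix ι ι F) *ᵥ ((k : Matrix ι ι F) *ᵥ y) = y := by
    intro y
    rw [mulVec_mulVec, Units.inv_mul, one_mulVec]
  have hCn : (QuadraticMap.polarBilin C).Nondegenerate := by
    apply nondeg_of_left
    intro x hx
    rw [← hkinv' x]
    have h1 : (k : Matrix ι ι F) *ᵥ x = 0 := by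
      apply hQ.1
      intro y
      rw [← hkinv y]
      show QuadraticMap.polar Q _ _ = 0
      have h2 := hx (((k⁻¹ : GL ι F) : Matrix ι ι F) *ᵥ y)
      unfold QuadraticMap.polar at h2 ⊢
      rw [hC, hC, hC, mulVec_add] at h2
      exact h2
    rw [h1, mulVec_zero]
  have hσC : ∀ x, (μ : F) * σ (C x) = (l : F) * (l : F) * C (σ ∘ x) := by
    intro x
    rw [hC, hC, ← hσ, ← hg, ← gm_mulVec, ← coe_gm, mulVec_mulVec, ← Units.val_mul, hk, scal_mul_mulVec, qsmul]
  obtain ⟨v0, hv0⟩ : ∃ v0 : ι → fixF σ, C (jv σ v0) ≠ 0 := by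
    by_contra hcon
    push Not at hcon
    have h1 : C = 0 := qf_ext_rational (σ := σ) fun x => by rw [hcon]; rfl
    obtain ⟨i⟩ := (inferInstance : Nonempty ι)
    have h2 : (Pi.single i 1 : ι → F) = 0 := by
      apply hCn.1
      intro y
      show QuadraticMap.polar C _ _ = 0
      rw [h1]
      unfold QuadraticMap.polar
      simp
    have := congrFun h2 i
    simp at this
  obtain ⟨a, ha⟩ : ∃ a, a = C (jv σ v0) := ⟨_, rfl⟩
  rw [← ha] at hv0
  have haσ : (μ : F) * σ a = (l : F) * (l : F) * a := by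
    have := hσC (jv σ v0)
    rw [jv_fixed, ← ha] at this
    exact this
  have hσa0 : σ a ≠ 0 := fun h => hv0 ((map_eq_zero_iff σ σ.injective).1 h)
  obtain ⟨D₀, hD₀⟩ := descend_qf (σ := σ) (a⁻¹ • C) (by
    intro v
    show a⁻¹ * C (σ ∘ v) = σ (a⁻¹ * C v)
    rw [map_mul, map_inv₀]
    have h1 := hσC v
    have hl : (l : F) ≠ 0 := l.ne_zero
    have hμ0 : (μ : F) ≠ 0 := μ.ne_zero
    field_simp
    apply mul_left_cancel₀ (mul_ne_zero hμ0 (mul_ne_zero hl hl))
    linear_combination (-(l * l * a : F)) * h1 + (l * l * C (σ ∘ v) : F) * haσ)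
  refine ⟨a, D₀, hv0, ?_, haσ, fun x => ?_⟩
  · apply descend_nondeg hD₀
    apply nondeg_of_left
    intro x hx
    apply hCn.1
    intro y
    have h1 := hx y
    have h2 : QuadraticMap.polar (⇑(a⁻¹ • C)) x y = a⁻¹ * QuadraticMap.polar C x y := by
      unfold QuadraticMap.polar
      simp only [QuadraticMap.smul_apply, smul_eq_mul]; ring
    rw [h2] at h1
    exact (mul_eq_zero.1 h1).resolve_left (inv_ne_zero hv0)
  · rw [hD₀, ← hC]
    show _ = a * (a⁻¹ * C (jv σ x))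
    rw [mul_inv_cancel_left₀ hv0]

theorem gl_of_lin {K : Type*} [Field K] (φ : (ι → K) ≃ₗ[K] (ι → K)) : ∃ g : GL ι K, ∀ x, (g : Matrix ι ι K) *ᵥ x = φ x :=
  ⟨glLin.symm φ, fun x => glLin_symm_mulVec φ x⟩

/-- lifting a rational basis change -/
theorem lift_gl (h0 : GL ι (fixF σ)) : ∃ h : GL ι F, gm σ h = h ∧ ∀ x, (h : Matrix ι ι F) *ᵥ jv σ x = jv σ ((h0 : Matrix ι ι (fixF σ)) *ᵥ x) := by
  refine ⟨Matrix.GeneralLinearGroup.map (fixF σ).subtype h0, ?_, ?_⟩
  · apply Units.ext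
    ext i j
    exact ((h0 : Matrix ι ι (fixF σ)) i j).2
  · intro x
    ext i
    unfold jv
    simp only [Matrix.mulVec, dotProduct]
    push_cast
    rfl

end CfsgLib.Desc27
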