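import Mathlib
import Cfsg.Agent.EqBase
import Cfsg.Agent.LibClifford
import Cfsg.Agent.LibCharInt2

/-!
# Characters of defect zero from elements of a normal p'-subgroup (helper17)
-/

set_option autoImplicit false
set_option linter.unusedSectionVars false
set_option linter.style.haveILetI false
set_option linter.unusedVariables false

namespace CfsgLib.DzQ

open Cfsg CfsgLib.CharBasic CfsgLib.Clifford CfsgLib.CharIndA CfsgLib.CharNorm
open CfsgLib.CharInt (irr_charDegree_pos irr_one_eq_charDegree)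
open scoped ComplexConjugate

universe u

theorem card_class {G : Type u} [Group G] [Finite G] (y : G) :
    {z : G | IsConj y z}.ncard * Nat.card (Subgroup.centralizer ({y} : Set G)) = Nat.card G := by
  have h1 := Subgroup.card_mul_index (MulAction.stabilizer (ConjAct G) y)
  rw [MulAction.index_stabilizer, ← Subgroup.nat_card_centralizer_nat_card_stabilizer] at h1
  have h2 : MulAction.orbit (ConjAct G) y = {z : G | IsConj y z} := by
    ext z
    rw [ConjAct.mem_orbit_conjAct]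
    exact ⟨fun h => h.symm, fun h => h.symm⟩
  rw [h2] at h1
  rw [mul_comm, h1]
  rfl

variable {G : Type u} [Group G] [Fintype G] {N : Subgroup G} (hN : N.Normal) [Fintype N]

open Classical in
/-- the class of `y` as a subset of `N` -/
noncomputable def KK (N : Subgroup G) [Fintype N] (y : G) : Finset N :=
  Finset.univ.filter fun n : N => IsConj y (n : G)

theorem mem_KK {y : G} {n : N} : n ∈ KK N y ↔ IsConj y (n : G) := by
  classical
  simp [KK]

theorem sum_conj (y g : G) (f : N → ℂ) :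
    ∑ n ∈ KK N y, f ⟨g * n * g⁻¹, hN.conj_mem n n.2 g⟩ = ∑ n ∈ KK N y, f n := by
  have hc : ∀ (g : G) (n : N), IsConj (n : G) (g * n * g⁻¹) := fun g n => isConj_iff.2 ⟨g, rfl⟩
  refine Finset.sum_bij' (fun n _ => (⟨g * n * g⁻¹, hN.conj_mem n n.2 g⟩ : N))
    (fun n _ => (⟨g⁻¹ * n * g⁻¹⁻¹, hN.conj_mem n n.2 g⁻¹⟩ : N)) ?_ ?_ ?_ ?_ ?_
  · intro n hn
    rw [mem_KK] at hn ⊢
    exact hn.trans (hc g n)
  · intro n hn
    rw [mem_KK] at hn ⊢
    exact hn.trans (hc g⁻¹ n)
  · intro n _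
    apply Subtype.ext
    show g⁻¹ * (g * n * g⁻¹) * g⁻¹⁻¹ = n
    group
  · intro n _
    apply Subtype.ext
    show g * (g⁻¹ * n * g⁻¹⁻¹) * g⁻¹ = n
    group
  · intro n _; rfl

include hN in
theorem sum_theta {χ : G → ℂ} (hχ : IsIrrCharacter G χ) {θ : N → ℂ} (hθ : IsIrrCharacter N θ)
    (h1 : classInner (fun h : N => χ h) θ ≠ 0) (y : G) :
    χ 1 * ∑ n ∈ KK N y, θ n = (((KK N y).card : ℂ) * χ y) * θ 1 := by
  have h2 := clifford_sum hN hχ hθ h1
  set c := classInner (fun h : N => χ h) θ / (Nat.card (inertia hN θ) : ℂ) with hc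
  have h3 : ∀ n : N, χ n = c * ∑ x : G, θ ⟨x * n * x⁻¹, hN.conj_mem n n.2 x⟩ := by
    intro n
    have := congrFun h2 n
    rw [Pi.smul_apply, Finset.sum_apply, smul_eq_mul] at this
    exact this
  have h4 : χ 1 = c * (Fintype.card G * θ 1) := by
    have h7 : χ 1 = c * ∑ x : G, θ ⟨x * ((1 : N) : G) * x⁻¹, hN.conj_mem _ (1 : N).2 x⟩ := h3 1
    have h8 : ∑ x : G, θ ⟨x * ((1 : N) : G) * x⁻¹, hN.conj_mem _ (1 : N).2 x⟩ = ∑ x : G, θ 1 := by
      apply Finset.sum_congr rfl
      intro x _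
      congr 1
      apply Subtype.ext
      show x * 1 * x⁻¹ = 1
      group
    rw [h7, h8, Finset.sum_const, Finset.card_univ, nsmul_eq_mul]
  have h5 : ∑ n ∈ KK N y, χ n = ((KK N y).card : ℂ) * χ y := by
    rw [Finset.sum_congr rfl (g := fun _ => χ y), Finset.sum_const, nsmul_eq_mul]
    intro n hn
    obtain ⟨g, hg⟩ := isConj_iff.1 (mem_KK.1 hn)
    rw [← hg, irr_classFun hχ]
  have h6 : ∑ n ∈ KK N y, χ n = c * (Fintype.card G * ∑ n ∈ KK N y, θ n) := by
    rw [Finset.sum_congr rfl fun n _ => h3 n, ← Finset.mul_sum, Finset.sum_comm,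
      Finset.sum_congr rfl fun x _ => sum_conj hN y x θ, Finset.sum_const, Finset.card_univ, nsmul_eq_mul]
  rw [← h5, h6, h4]; ring

include hN in
/-- **existence of characters of defect zero** -/
theorem exists_dz {p : ℕ} (hp : p.Prime) (hpN : ¬ p ∣ Nat.card N) {y : G} (hy : y ∈ N)
    (hC : ¬ p ∣ Nat.card (Subgroup.centralizer ({y} : Set G))) :
    ∃ χ : IrrCharacter G, (charDegree (χ : G → ℂ)).factorization p = (Nat.card G).factorization p := by
  classical
  by_contra hcon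
  push Not at hcon
  have hG0 : Nat.card G ≠ 0 := Nat.card_pos.ne'
  set a := (Nat.card G).factorization p with ha
  set m := Nat.card G / p ^ a with hm
  have hGm : p ^ a * m = Nat.card G := Nat.ordProj_mul_ordCompl_eq_self _ _
  have hpm : ¬ p ∣ m := Nat.not_dvd_ordCompl hp hG0
  -- the class
  have hKc : (KK N y).card = {z : G | IsConj y z}.ncard := by
    rw [← Set.ncard_coe_finset]
    apply Set.ncard_congr (fun (n : N) _ => (n : G))
    · intro n hn; exact mem_KK.1 (Finset.mem_coe.1 hn)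
    · intro n n' _ _ h; exact Subtype.ext h
    · intro z hz
      obtain ⟨g, hg⟩ := isConj_iff.1 (show IsConj y z from hz)
      refine ⟨⟨z, by rw [← hg]; exact hN.conj_mem y hy g⟩, Finset.mem_coe.2 (mem_KK.2 hz), rfl⟩
  have hKC : (KK N y).card * Nat.card (Subgroup.centralizer ({y} : Set G)) = Nat.card G := by
    rw [hKc]; exact card_class y
  have hpaK : p ^ a ∣ (KK N y).card := by
    have h1 : p ^ a ∣ (KK N y).card * Nat.card (Subgroup.centralizer ({y} : Set G)) := by
      rw [hKC]; exact ⟨m, hGm.symm⟩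
    exact (Nat.Coprime.pow_left a ((Nat.Prime.coprime_iff_not_dvd hp).2 hC)).dvd_of_dvd_mul_right h1
  obtain ⟨s, hs⟩ := hpaK
  -- for each character, p χ(1) divides m |K|
  have hdeg : ∀ χ : IrrCharacter G, ∃ k : ℕ, m * (KK N y).card = p * charDegree (χ : G → ℂ) * k := by
    intro χ
    have hd0 : charDegree (χ : G → ℂ) ≠ 0 := (irr_charDegree_pos χ.2).ne'
    have hdv : charDegree (χ : G → ℂ) ∣ Nat.card G := CharInt2.charDegree_dvd_card χ.2
    set d := charDegree (χ : G → ℂ) with hd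
    set c := d.factorization p with hc
    have hcle : c ≤ a := (Nat.factorization_le_iff_dvd hd0 hG0).2 hdv p
    have hclt : c < a := lt_of_le_of_ne hcle (hcon χ)
    have hdd : p ^ c * (d / p ^ c) = d := Nat.ordProj_mul_ordCompl_eq_self _ _
    have hd' : d / p ^ c ∣ m := by
      have h1 : d / p ^ c ∣ p ^ a * m := by
        rw [hGm]; exact (Nat.ordCompl_dvd d p).trans hdv
      exact (Nat.Coprime.pow_right a (Nat.coprime_comm.1 ((Nat.Prime.coprime_iff_not_dvd hp).2
        (Nat.not_dvd_ordCompl hp hd0)))).dvd_of_dvd_mul_left h1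
    obtain ⟨r, hr⟩ := hd'
    obtain ⟨j, hj⟩ := Nat.exists_eq_add_of_lt hclt
    refine ⟨r * s * p ^ j, ?_⟩
    calc m * (KK N y).card = (d / p ^ c * r) * (p ^ a * s) := by rw [hs, ← hr]
      _ = p * (p ^ c * (d / p ^ c)) * (r * s * p ^ j) := by
        rw [hj, pow_add, pow_add, pow_one]; ring
      _ = p * d * (r * s * p ^ j) := by rw [hdd]
  -- expansion of the indicator
  let F : N → ℂ := fun n => if n ∈ KK N y then 1 else 0
  have hF : IsClassFunction N F := by
    intro n g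
    show (if g * n * g⁻¹ ∈ KK N y then (1 : ℂ) else 0) = if n ∈ KK N y then 1 else 0
    have : g * n * g⁻¹ ∈ KK N y ↔ n ∈ KK N y := by
      rw [mem_KK, mem_KK]
      have hc : IsConj (n : G) ((g * n * g⁻¹ : N) : G) := isConj_iff.2 ⟨g, rfl⟩
      exact ⟨fun h => h.trans hc.symm, fun h => h.trans hc⟩
    simp only [this]
  have hexp := classFun_expand_apply hF ⟨y, hy⟩
  have hFy : F ⟨y, hy⟩ = 1 := if_pos (mem_KK.2 (IsConj.refl y))
  have hin : ∀ θ : IrrCharacter N, classInner F (θ : N → ℂ) = (Nat.card N : ℂ)⁻¹ * conj (∑ n ∈ KK N y, (θ : N → ℂ) n) := by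
    intro θ
    unfold classInner
    rw [map_sum]
    congr 1
    rw [← Finset.sum_filter_add_sum_filter_not Finset.univ (fun n => n ∈ KK N y)]
    have h1 : ∑ n ∈ Finset.univ.filter (fun n => ¬ n ∈ KK N y), F n * conj ((θ : N → ℂ) n) = 0 := by
      apply Finset.sum_eq_zero
      intro n hn
      have : F n = 0 := if_neg (Finset.mem_filter.1 hn).2
      rw [this, zero_mul]
    rw [h1, add_zero]
    have h2 : Finset.univ.filter (fun n => n ∈ KK N y) = KK N y := by ext n; simp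
    rw [h2]
    apply Finset.sum_congr rfl
    intro n hn
    have : F n = 1 := if_pos hn
    rw [this, one_mul]
  have hint : IsIntegral ℤ (((m * Nat.card N : ℕ) : ℂ) / (p : ℂ)) := by
    have hN0 : (Nat.card N : ℂ) ≠ 0 := by exact_mod_cast Nat.card_pos.ne'
    have hp0 : (p : ℂ) ≠ 0 := by exact_mod_cast hp.ne_zero
    have h1 : (Nat.card N : ℂ) = ∑ θ : IrrCharacter N, conj (∑ n ∈ KK N y, (θ : N → ℂ) n) * (θ : N → ℂ) ⟨y, hy⟩ := by
      rw [hFy] at hexp
      have h2 : (Nat.card N : ℂ) * 1 = (Nat.card N : ℂ) * ∑ θ : IrrCharacter N, classInner F (θ : N → ℂ) * (θ : N → ℂ) ⟨y, hy⟩ := by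
        rw [← hexp]
      rw [mul_one] at h2
      rw [h2, Finset.mul_sum]
      apply Finset.sum_congr rfl
      intro θ _
      rw [hin, ← mul_assoc, mul_inv_cancel_left₀ hN0]
    have h2 : ∀ θ : IrrCharacter N, IsIntegral ℤ ((m : ℂ) / p * conj (∑ n ∈ KK N y, (θ : N → ℂ) n)) := by
      intro θ
      obtain ⟨χ, hχ, hχ0⟩ := exists_above N θ.2
      have h3 := sum_theta hN hχ θ.2 hχ0 y
      obtain ⟨k, hk⟩ := hdeg ⟨χ, hχ⟩
      have hk' : (m : ℂ) * ((KK N y).card : ℂ) = p * χ 1 * k := by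
        rw [irr_one_eq_charDegree hχ]
        exact_mod_cast hk
      have hχ1 : χ 1 ≠ 0 := irr_one_ne_zero hχ
      obtain ⟨d, hd0, hd⟩ := irr_one_nat θ.2
      have h4 : (m : ℂ) / p * ∑ n ∈ KK N y, (θ : N → ℂ) n = (k : ℂ) * χ y * d := by
        apply mul_left_cancel₀ hχ1
        apply mul_left_cancel₀ hp0
        calc (p : ℂ) * (χ 1 * ((m : ℂ) / p * ∑ n ∈ KK N y, (θ : N → ℂ) n))
            = m * (χ 1 * ∑ n ∈ KK N y, (θ : N → ℂ) n) := by field_simp
          _ = (m * (KK N y).card) * χ y * d := by rw [h3, hd]; ring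
          _ = _ := by rw [hk']; ring
      have h5 : (m : ℂ) / p * conj (∑ n ∈ KK N y, (θ : N → ℂ) n) = (k : ℂ) * χ y⁻¹ * d := by
        have := congrArg conj h4
        rw [map_mul, map_div₀, Complex.conj_natCast, Complex.conj_natCast, map_mul, map_mul,
          Complex.conj_natCast, Complex.conj_natCast] at this
        rw [this, char_inv_eq_conj (irr_isCharacter hχ)]
      rw [h5]
      exact ((isIntegral_algebraMap (R := ℤ) (x := (k : ℤ))).mul (char_isIntegral (irr_isCharacter hχ) _)).mul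
        (isIntegral_algebraMap (R := ℤ) (x := (d : ℤ)))
    have h3 : ((m * Nat.card N : ℕ) : ℂ) / (p : ℂ) =
        ∑ θ : IrrCharacter N, ((m : ℂ) / p * conj (∑ n ∈ KK N y, (θ : N → ℂ) n)) * (θ : N → ℂ) ⟨y, hy⟩ := by
      have h4 : ((m * Nat.card N : ℕ) : ℂ) / (p : ℂ) = (m : ℂ) / p * (Nat.card N : ℂ) := by
        push_cast; ring
      rw [h4, h1, Finset.mul_sum]
      apply Finset.sum_congr rfl
      intro θ _
      ring
    rw [h3]
    apply IsIntegral.sum
    intro θ _
    exact (h2 θ).mul (char_isIntegral (irr_isCharacter θ.2) _)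
  have hdvd := CharInt2.div_isIntegral hp.ne_zero hint
  rcases hp.dvd_mul.1 hdvd with h | h
  · exact hpm h
  · exact hpN h

theorem step {H K : Subgroup G} (hHK : H ≤ K) : Nat.card H * H.relIndex K = Nat.card K := by
  have := Subgroup.card_mul_index (H.subgroupOf K)
  rw [Nat.card_congr (Subgroup.subgroupOfEquivOfLe hHK).toEquiv] at this
  exact this

/-- the structural dichotomy -/
theorem dich {p q : ℕ} (hp : p.Prime) (hq : q.Prime) (hpq : p ≠ q) (hpG : p ∣ Nat.card G)
    (hps : IsPSolvable p G) :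
    (∃ N : Subgroup G, N.Normal ∧ ¬ p ∣ Nat.card N ∧ q ∣ Nat.card N) ∨
    (∃ N : Subgroup G, N.Normal ∧ ¬ q ∣ Nat.card N ∧ p ∣ Nat.card N) := by
  classical
  obtain ⟨n, H, h0, hl, hmono, hn, hstep⟩ := hps
  -- least index whose order is divisible by `p` or `q`
  have hex : ∃ i : ℕ, ∃ hi : i < n + 1, p ∣ Nat.card (H ⟨i, hi⟩) ∨ q ∣ Nat.card (H ⟨i, hi⟩) := by
    refine ⟨n, Nat.lt_succ_self n, Or.inl ?_⟩
    have : H ⟨n, Nat.lt_succ_self n⟩ = ⊤ := hl
    rw [this, Subgroup.card_top]; exact hpG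
  obtain ⟨i, hi⟩ : ∃ i, i = Nat.find hex := ⟨_, rfl⟩
  obtain ⟨hin, hi1⟩ := Nat.find_spec hex
  have hmin : ∀ j (hj : j < Nat.find hex) (hjn : j < n + 1), ¬ p ∣ Nat.card (H ⟨j, hjn⟩) ∧ ¬ q ∣ Nat.card (H ⟨j, hjn⟩) := by
    intro j hj hjn
    have := Nat.find_min hex hj
    push Not at this
    exact this hjn
  have hi0 : Nat.find hex ≠ 0 := by
    intro h
    have h1 : (⟨Nat.find hex, hin⟩ : Fin (n + 1)) = 0 := by
      apply Fin.ext; exact h
    rw [h1, h0, Subgroup.card_bot] at hi1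
    rcases hi1 with h2 | h2
    · exact hp.one_lt.ne' (Nat.dvd_one.1 h2)
    · exact hq.one_lt.ne' (Nat.dvd_one.1 h2)
  obtain ⟨j, hj⟩ := Nat.exists_eq_succ_of_ne_zero hi0
  have hjn : j < n := by omega
  have hjm := hmin j (by omega) (by omega)
  set A : Subgroup G := H (⟨j, hjn⟩ : Fin n).castSucc with hA
  set B : Subgroup G := H (⟨j, hjn⟩ : Fin n).succ with hB
  have hAB : A ≤ B := hmono (by
    rw [Fin.le_def]; simp)
  have hA' : ¬ p ∣ Nat.card A ∧ ¬ q ∣ Nat.card A := hjm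
  have hB' : p ∣ Nat.card B ∨ q ∣ Nat.card B := by
    have h2 : (⟨Nat.find hex, hin⟩ : Fin (n + 1)) = (⟨j, hjn⟩ : Fin n).succ := by
      apply Fin.ext; simpa using hj
    rw [h2] at hi1
    exact hi1
  have hcard := step hAB
  rcases hstep ⟨j, hjn⟩ with ⟨k, hk⟩ | hk
  · right
    have hqB : ¬ q ∣ Nat.card B := by
      rw [← hcard]
      intro h
      rcases hq.dvd_mul.1 h with h | h
      · exact hA'.2 h
      · have h3 : q ∣ p ^ k := by rw [← hk]; exact h
        exact hpq ((Nat.prime_dvd_prime_iff_eq hq hp).1 (hq.dvd_of_dvd_pow h3)).symm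
    exact ⟨B, hn _, hqB, hB'.resolve_right hqB⟩
  · left
    have hpB : ¬ p ∣ Nat.card B := by
      rw [← hcard]
      intro h
      rcases hp.dvd_mul.1 h with h | h
      · exact hA'.1 h
      · have h3 : Nat.Coprime (A.relIndex B) p := hk
        exact (Nat.Prime.coprime_iff_not_dvd hp).1 (Nat.coprime_comm.1 h3) h
    exact ⟨B, hn _, hpB, hB'.resolve_left hpB⟩

theorem s4743 {p q : ℕ} (hp : p.Prime) (hq : q.Prime) (hpq : p ≠ q) (hpG : p ∣ Nat.card G)
    (hqG : q ∣ Nat.card G)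
    (hC : ∀ g : G, g ≠ 1 → (∃ k : ℕ, orderOf g = p ^ k) → ¬ q ∣ Nat.card (Subgroup.centralizer ({g} : Set G)))
    (hsolv : IsPSolvable p G ∨ IsPSolvable q G) :
    (∃ χ : IrrCharacter G, (charDegree (χ : G → ℂ)).factorization p = (Nat.card G).factorization p) ∨
    (∃ χ : IrrCharacter G, (charDegree (χ : G → ℂ)).factorization q = (Nat.card G).factorization q) := by
  classical
  have hC' : ∀ y : G, orderOf y = q → ¬ p ∣ Nat.card (Subgroup.centralizer ({y} : Set G)) := by
    intro y hy hpc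
    haveI : Fact p.Prime := ⟨hp⟩
    obtain ⟨⟨x, hx⟩, hxo⟩ := exists_prime_orderOf_dvd_card' p hpc
    rw [Subgroup.orderOf_mk] at hxo
    apply hC x (fun h => by rw [h, orderOf_one] at hxo; exact hp.one_lt.ne hxo) ⟨1, by rw [hxo, pow_one]⟩
    have h1 : y ∈ Subgroup.centralizer ({x} : Set G) := by
      rw [Subgroup.mem_centralizer_singleton_iff]
      exact (Subgroup.mem_centralizer_singleton_iff.1 hx).symm
    rw [← hy, ← Subgroup.orderOf_mk y h1]
    exact orderOf_dvd_natCard _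
  have key : (∃ N : Subgroup G, N.Normal ∧ ¬ p ∣ Nat.card N ∧ q ∣ Nat.card N) ∨
      (∃ N : Subgroup G, N.Normal ∧ ¬ q ∣ Nat.card N ∧ p ∣ Nat.card N) := by
    rcases hsolv with h | h
    · exact dich hp hq hpq hpG h
    · exact (dich hq hp (Ne.symm hpq) hqG h).symm
  rcases key with ⟨N, hN, h1, h2⟩ | ⟨N, hN, h1, h2⟩
  · left
    haveI : Fintype N := Fintype.ofFinite N
    haveI : Fact q.Prime := ⟨hq⟩
    obtain ⟨⟨y, hy⟩, hyo⟩ := exists_prime_orderOf_dvd_card' q h2
    rw [Subgroup.orderOf_mk] at hyo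
    exact exists_dz hN hp h1 hy (hC' y hyo)
  · right
    haveI : Fintype N := Fintype.ofFinite N
    haveI : Fact p.Prime := ⟨hp⟩
    obtain ⟨⟨y, hy⟩, hyo⟩ := exists_prime_orderOf_dvd_card' p h2
    rw [Subgroup.orderOf_mk] at hyo
    exact exists_dz hN hq h1 hy (hC y (fun h => by rw [h, orderOf_one] at hyo; exact hp.one_lt.ne hyo)
      ⟨1, by rw [hyo, pow_one]⟩)

end CfsgLib.DzQ
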