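import Cfsg.Agent.LibBW11d
import Cfsg.Agent.LibDi11c
import Cfsg.Agent.LibBlkSmall

/-! Self-centralizing TI subgroups of odd order with dihedral normalizer (helper12). -/

set_option autoImplicit false
set_option linter.all false

namespace CfsgLib.E2H12

open Subgroup Cfsg CfsgLib.CharBasic CfsgLib.BW11
open scoped ComplexConjugate

universe u

/-- abelian TI subgroup of odd order, self centralizing, normalizer `K⟨s⟩` dihedral -/
structure OD {G : Type u} [Group G] (K : Subgroup G) (s : G) : Prop where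
  comm : ∀ x ∈ K, ∀ y ∈ K, x * y = y * x
  s2 : s * s = 1
  s1 : s ≠ 1
  sK : s ∉ K
  inv : ∀ x ∈ K, s * x * s⁻¹ = x⁻¹
  uniq : ∀ x ∈ K, x * x = 1 → x = 1
  ti : ∀ g x, x ∈ K → x ≠ 1 → g * x * g⁻¹ ∈ K → (g ∈ K ∨ s * g ∈ K)
  nt : ∃ x ∈ K, x ≠ 1

section
variable {G : Type u} [Group G] {K : Subgroup G} {s : G}

namespace OD
variable (h : OD K s)
include h

theorem si : s⁻¹ = s := inv_eq_of_mul_eq_one_left h.s2

theorem sxs {x : G} (hx : x ∈ K) : s * x = x⁻¹ * s := by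
  have := h.inv x hx
  rw [← this]; group

theorem invol {x : G} (hx : s * x ∈ K) : x * x = 1 := by
  have h1 : x = s * (s * x) := by rw [← mul_assoc, h.s2, one_mul]
  rw [h1]
  have h2 := h.sxs hx
  calc s * (s * x) * (s * (s * x)) = (s * (s * x)) * (s * (s * x)) := rfl
    _ = ((s * x)⁻¹ * s) * (s * (s * x)) := by rw [h2]
    _ = (s * x)⁻¹ * (s * s) * (s * x) := by group
    _ = 1 := by rw [h.s2]; group

theorem conj_cases {g x : G} (hx : x ∈ K) (hg : g ∈ K ∨ s * g ∈ K) : g * x * g⁻¹ = x ∨ g * x * g⁻¹ = x⁻¹ := by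
  rcases hg with hg | hg
  · left
    rw [h.comm g hg x hx]; group
  · right
    have h1 : g = s * (s * g) := by rw [← mul_assoc, h.s2, one_mul]
    rw [h1]
    calc s * (s * g) * x * (s * (s * g))⁻¹ = s * ((s * g) * x * (s * g)⁻¹) * s⁻¹ := by group
      _ = s * (x * (s * g) * (s * g)⁻¹) * s⁻¹ := by rw [h.comm _ hg x hx]
      _ = s * x * s⁻¹ := by group
      _ = x⁻¹ := h.inv x hx

theorem inv_of {g x : G} (hx : x ∈ K) (hg : s * g ∈ K) : g * x * g⁻¹ = x⁻¹ := by
  have h1 : g = s * (s * g) := by rw [← mul_assoc, h.s2, one_mul]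
  rw [h1]
  calc s * (s * g) * x * (s * (s * g))⁻¹ = s * ((s * g) * x * (s * g)⁻¹) * s⁻¹ := by group
    _ = s * (x * (s * g) * (s * g)⁻¹) * s⁻¹ := by rw [h.comm _ hg x hx]
    _ = s * x * s⁻¹ := by group
    _ = x⁻¹ := h.inv x hx

theorem isConj_inv {x : G} (hx : x ∈ K) : IsConj x x⁻¹ := isConj_iff.2 ⟨s, h.inv x hx⟩

theorem isConj_iff' {x y : G} (hx : x ∈ K) (hx1 : x ≠ 1) (hy : y ∈ K) : IsConj x y ↔ (y = x ∨ y = x⁻¹) := by
  constructor
  · intro hc
    obtain ⟨g, hg⟩ := isConj_iff.1 hc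
    have h1 := h.ti g x hx hx1 (by rw [hg]; exact hy)
    rw [← hg]
    exact h.conj_cases hx h1
  · rintro (rfl | rfl)
    · exact IsConj.refl _
    · exact h.isConj_inv hx

theorem cent_iff {x : G} (hx : x ∈ K) (hx1 : x ≠ 1) {g : G} : g * x = x * g ↔ g ∈ K := by
  constructor
  · intro hc
    have h1 : g * x * g⁻¹ = x := by rw [hc]; group
    rcases h.ti g x hx hx1 (by rw [h1]; exact hx) with h2 | h2
    · exact h2
    · exfalso
      have h3 := h.inv_of hx h2
      rw [h1] at h3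
      apply hx1
      apply h.uniq x hx
      nth_rewrite 1 [h3]
      exact inv_mul_cancel x
  · intro hg
    exact h.comm g hg x hx

theorem card_cent [Finite G] {x : G} (hx : x ∈ K) (hx1 : x ≠ 1) :
    Nat.card (centralizer ({x} : Set G)) = Nat.card K := by
  have : centralizer ({x} : Set G) = K := by
    ext g
    rw [mem_centralizer_singleton_iff]
    exact h.cent_iff hx hx1
  rw [this]

theorem card_sK [Finite G] : Nat.card {x : G // s * x ∈ K} = Nat.card K :=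
  Nat.card_congr ⟨fun x => ⟨s * x.1, x.2⟩, fun y => ⟨s * y.1, by rw [← mul_assoc, h.s2, one_mul]; exact y.2⟩,
    fun x => Subtype.ext (by show s * (s * x.1) = x.1; rw [← mul_assoc, h.s2, one_mul]),
    fun x => Subtype.ext (by show s * (s * x.1) = x.1; rw [← mul_assoc, h.s2, one_mul])⟩

/-- square roots in `K` -/
theorem sqrt [Finite G] {x : G} (hx : x ∈ K) : ∃ y ∈ K, y * y = x := by
  let f : K → K := fun y => y * y
  have hf : Function.Injective f := by
    intro a b hab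
    have h1 : (a : G) * a = b * b := congrArg Subtype.val hab
    have h2 : ((a : G) * (b : G)⁻¹) * ((a : G) * (b : G)⁻¹) = 1 := by
      have h3 := h.comm a a.2 (b : G)⁻¹ (K.inv_mem b.2)
      calc ((a : G) * (b : G)⁻¹) * ((a : G) * (b : G)⁻¹) = a * ((b : G)⁻¹ * a) * (b : G)⁻¹ := by group
        _ = a * (a * (b : G)⁻¹) * (b : G)⁻¹ := by rw [h3]
        _ = (a * a) * ((b : G) * b)⁻¹ := by group
        _ = 1 := by rw [h1]; group
    have h4 := h.uniq _ (K.mul_mem a.2 (K.inv_mem b.2)) h2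
    rw [mul_inv_eq_one] at h4
    exact Subtype.ext h4
  obtain ⟨y, hy⟩ := (Finite.injective_iff_surjective.1 hf) ⟨x, hx⟩
  exact ⟨y, y.2, congrArg Subtype.val hy⟩

/-- all elements of `s K` are conjugate to `s` -/
theorem cj [Finite G] {a : G} (ha : s * a ∈ K) : IsConj s a := by
  obtain ⟨y, hy, hyy⟩ := h.sqrt ha
  rw [isConj_iff]
  refine ⟨y⁻¹, ?_⟩
  have h1 : a = s * (y * y) := by rw [hyy, ← mul_assoc, h.s2, one_mul]
  rw [h1, inv_inv, ← h.sxs hy, mul_assoc]

/-- the involutions inverting an element of `K` -/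
theorem refl_iff [Finite G] {x z : G} (hz2 : z * z = 1) (hz1 : z ≠ 1) (hx : x ∈ K) (hx1 : x ≠ 1) (a : G) :
    (IsConj z a ∧ IsConj z (a * x)) ↔ (IsConj z s ∧ s * a ∈ K) := by
  constructor
  · rintro ⟨h1, h2⟩
    obtain ⟨g, hg⟩ := isConj_iff.1 h1
    obtain ⟨g', hg'⟩ := isConj_iff.1 h2
    have e1 : a * a = 1 := by
      rw [← hg]
      have : g * z * g⁻¹ * (g * z * g⁻¹) = g * (z * z) * g⁻¹ := by group
      rw [this, hz2]; group
    have e2 : (a * x) * (a * x) = 1 := by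
      rw [← hg']
      have : g' * z * g'⁻¹ * (g' * z * g'⁻¹) = g' * (z * z) * g'⁻¹ := by group
      rw [this, hz2]; group
    have e3 : a * x * a⁻¹ = x⁻¹ := by
      have e4 : a⁻¹ = a := inv_eq_of_mul_eq_one_left e1
      rw [e4, eq_inv_iff_mul_eq_one, ← e2]; group
    have ha1 : a ≠ 1 := by
      intro h0
      rw [h0, mul_inv_eq_one, mul_eq_left] at hg
      exact hz1 hg
    rcases h.ti a x hx hx1 (by rw [e3]; exact K.inv_mem hx) with h3 | h3
    · exact absurd (h.uniq a h3 e1) ha1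
    · exact ⟨h1.trans (h.cj h3).symm, h3⟩
  · rintro ⟨hc, ha⟩
    have hax : s * (a * x) ∈ K := by rw [← mul_assoc]; exact K.mul_mem ha hx
    exact ⟨hc.trans (h.cj ha), hc.trans (h.cj hax)⟩

theorem card_refl [Finite G] {x : G} (hx : x ∈ K) (hx1 : x ≠ 1) : Nat.card {a : G // IsConj s a ∧ IsConj s (a * x)} = Nat.card K := by
  rw [← h.card_sK]
  exact Nat.card_congr (Equiv.subtypeEquivRight fun a => by
    rw [h.refl_iff h.s2 h.s1 hx hx1 a]
    exact ⟨fun h1 => h1.2, fun h1 => ⟨IsConj.refl _, h1⟩⟩)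

theorem card_refl_zero [Finite G] {x z : G} (hz2 : z * z = 1) (hz1 : z ≠ 1) (hzs : ¬ IsConj z s) (hx : x ∈ K) (hx1 : x ≠ 1) :
    Nat.card {a : G // IsConj z a ∧ IsConj z (a * x)} = 0 := by
  haveI : IsEmpty {a : G // IsConj z a ∧ IsConj z (a * x)} :=
    ⟨fun a => hzs ((h.refl_iff hz2 hz1 hx hx1 a.1).1 a.2).1⟩
  exact Nat.card_of_isEmpty

open Classical in
/-- columns -/
theorem column [Fintype G] {x y : G} (hx : x ∈ K) (hx1 : x ≠ 1) (hy : y ∈ K) :
    ∑ χ : IrrCharacter G, (χ : G → ℂ) x * conj ((χ : G → ℂ) y) = (Nat.card K : ℂ) * ((if y = x then 1 else 0) + (if y = x⁻¹ then 1 else 0)) := by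
  classical
  rw [column_orthogonality]
  have hxi : x ≠ x⁻¹ := fun h1 => hx1 (h.uniq x hx (by nth_rewrite 1 [h1]; exact inv_mul_cancel x))
  by_cases hc : IsConj x y
  · rw [if_pos hc, h.card_cent hx hx1]
    rcases (h.isConj_iff' hx hx1 hy).1 hc with h1 | h1
    · rw [if_pos h1, if_neg (fun h2 => hxi (h1.symm.trans h2))]; ring
    · rw [if_pos h1, if_neg (fun h2 => hxi (h2.symm.trans h1))]; ring
  · rw [if_neg hc, if_neg (fun h1 => hc ((h.isConj_iff' hx hx1 hy).2 (Or.inl h1))),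
      if_neg (fun h1 => hc ((h.isConj_iff' hx hx1 hy).2 (Or.inr h1)))]
    ring

end OD
end

section
variable {G : Type u} [Group G] [Fintype G] {K : Subgroup G} [Fintype K] {s : G}

theorem hab (h : OD K s) : ∀ a b : K, a * b = b * a := fun a b => Subtype.ext (h.comm a a.2 b b.2)

theorem al_bar (h : OD K s) (l : IrrCharacter K) (χ : IrrCharacter G) : al (bar l) χ = al l χ := by
  unfold al
  congr 1
  apply Fintype.sum_equiv (Equiv.inv K)
  intro x
  have h1 : (χ : G → ℂ) ((x⁻¹ : K) : G) = (χ : G → ℂ) x := by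
    have h2 := h.inv x x.2
    have h3 : ((x⁻¹ : K) : G) = s * x * s⁻¹ := by rw [h2]; rfl
    rw [h3]
    exact irr_classFun χ.2 _ _
  show (χ : G → ℂ) x * (1 - conj ((bar l : K → ℂ) x)) = (χ : G → ℂ) ((x⁻¹ : K) : G) * (1 - conj ((l : K → ℂ) x⁻¹))
  rw [h1, bar_apply, lin_inv]

theorem sum_off (h : OD K s) (l : IrrCharacter K) {y : G} (hy : Off K y) :
    ∑ χ : IrrCharacter G, al l χ * conj ((χ : G → ℂ) y) = 0 := by
  classical
  have h1 : ∀ χ : IrrCharacter G, al l χ * conj ((χ : G → ℂ) y) =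
      (Nat.card K : ℂ)⁻¹ * ∑ x : K, (1 - conj ((l : K → ℂ) x)) * ((χ : G → ℂ) x * conj ((χ : G → ℂ) y)) := by
    intro χ
    unfold al
    rw [mul_assoc, Finset.sum_mul]
    congr 1
    exact Finset.sum_congr rfl fun x _ => by ring
  rw [Finset.sum_congr rfl fun χ _ => h1 χ, ← Finset.mul_sum, Finset.sum_comm]
  have h2 : ∀ x : K, ∑ χ : IrrCharacter G, (1 - conj ((l : K → ℂ) x)) * ((χ : G → ℂ) x * conj ((χ : G → ℂ) y)) = 0 := by
    intro x
    rw [← Finset.mul_sum]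
    by_cases hx : x = 1
    · rw [hx, lin_one (hab h), map_one, sub_self, zero_mul]
    · rw [column_orthogonality, if_neg (hy x x.2 (fun h0 => hx (Subtype.ext h0))), mul_zero]
  rw [Finset.sum_congr rfl fun x _ => h2 x, Finset.sum_const_zero, mul_zero]

theorem sum_K (h : OD K s) (l : IrrCharacter K) {y : K} (hy : y ≠ 1) :
    ∑ χ : IrrCharacter G, al l χ * conj ((χ : G → ℂ) y) = 2 - (l : K → ℂ) y - conj ((l : K → ℂ) y) := by
  classical
  have hK : (Nat.card K : ℂ) ≠ 0 := by exact_mod_cast Nat.card_pos.ne'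
  have h1 : ∀ χ : IrrCharacter G, al l χ * conj ((χ : G → ℂ) y) =
      (Nat.card K : ℂ)⁻¹ * ∑ x : K, (1 - conj ((l : K → ℂ) x)) * ((χ : G → ℂ) x * conj ((χ : G → ℂ) y)) := by
    intro χ
    unfold al
    rw [mul_assoc, Finset.sum_mul]
    congr 1
    exact Finset.sum_congr rfl fun x _ => by ring
  rw [Finset.sum_congr rfl fun χ _ => h1 χ, ← Finset.mul_sum, Finset.sum_comm]
  have h2 : ∀ x : K, ∑ χ : IrrCharacter G, (1 - conj ((l : K → ℂ) x)) * ((χ : G → ℂ) x * conj ((χ : G → ℂ) y)) =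
      (Nat.card K : ℂ) * ((if x = y then (1 - conj ((l : K → ℂ) y)) else 0) + (if x = y⁻¹ then (1 - (l : K → ℂ) y) else 0)) := by
    intro x
    rw [← Finset.mul_sum]
    by_cases hx : x = 1
    · rw [hx, lin_one (hab h), map_one, sub_self, zero_mul, if_neg hy.symm, if_neg (fun h0 => hy (inv_eq_one.1 h0.symm)), add_zero, mul_zero]
    · have h3 := h.column x.2 (fun h0 => hx (Subtype.ext h0)) y.2
      rw [h3]
      have e1 : ((y : G) = x) ↔ x = y := ⟨fun h0 => Subtype.ext h0.symm, fun h0 => by rw [h0]⟩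
      have e2 : ((y : G) = (x : G)⁻¹) ↔ x = y⁻¹ := ⟨fun h0 => Subtype.ext (by rw [Subgroup.coe_inv, h0, inv_inv]), fun h0 => by rw [h0, Subgroup.coe_inv, inv_inv]⟩
      rw [mul_left_comm]
      congr 1
      rw [mul_add]
      congr 1
      · by_cases h4 : x = y
        · rw [if_pos h4, if_pos (e1.2 h4), h4, mul_one]
        · rw [if_neg h4, if_neg (fun h5 => h4 (e1.1 h5)), mul_zero]
      · by_cases h4 : x = y⁻¹
        · rw [if_pos h4, if_pos (e2.2 h4), h4, mul_one, lin_inv, Complex.conj_conj]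
        · rw [if_neg h4, if_neg (fun h5 => h4 (e2.1 h5)), mul_zero]
  rw [Finset.sum_congr rfl fun x _ => h2 x, ← Finset.mul_sum, inv_mul_cancel_left₀ hK, Finset.sum_add_distrib,
    Finset.sum_ite_eq' Finset.univ y, Finset.sum_ite_eq' Finset.univ y⁻¹, if_pos (Finset.mem_univ _), if_pos (Finset.mem_univ _)]
  ring

open Classical in
theorem al_inner (h : OD K s) {l m : IrrCharacter K} (hl : l ≠ BW11.one K) (hm : m ≠ BW11.one K) :
    ∑ χ : IrrCharacter G, al l χ * al m χ = 2 + (if m = l then 1 else 0) + (if m = bar l then 1 else 0) := by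
  have hK : (Nat.card K : ℂ) ≠ 0 := by exact_mod_cast Nat.card_pos.ne'
  have hba : bar l ≠ BW11.one K := fun h0 => hl (by rw [← bar_bar l, h0, bar_one])
  have h1 : ∀ χ : IrrCharacter G, al l χ * al m χ = (Nat.card K : ℂ)⁻¹ * ∑ y : K, (1 - (m : K → ℂ) y) * (al l χ * conj ((χ : G → ℂ) y)) := by
    intro χ
    conv_lhs => rw [conj_al_sum m χ]
    rw [mul_left_comm, Finset.mul_sum]
    congr 1
    exact Finset.sum_congr rfl fun x _ => by ring
  rw [Finset.sum_congr rfl fun χ _ => h1 χ, ← Finset.mul_sum, Finset.sum_comm]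
  have h2 : ∀ y : K, ∑ χ : IrrCharacter G, (1 - (m : K → ℂ) y) * (al l χ * conj ((χ : G → ℂ) y)) =
      (1 - (m : K → ℂ) y) * (2 - (l : K → ℂ) y - conj ((l : K → ℂ) y)) := by
    intro y
    rw [← Finset.mul_sum]
    by_cases hy : y = 1
    · rw [hy, lin_one (hab h) m, sub_self, zero_mul, zero_mul]
    · rw [sum_K h l hy]
  rw [Finset.sum_congr rfl fun y _ => h2 y]
  have h3 : ∀ y : K, (1 - (m : K → ℂ) y) * (2 - (l : K → ℂ) y - conj ((l : K → ℂ) y)) =
      2 - (l : K → ℂ) y - (bar l : K → ℂ) y - 2 * (m : K → ℂ) y + (m : K → ℂ) y * conj ((bar l : K → ℂ) y) + (m : K → ℂ) y * conj ((l : K → ℂ) y) := by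
    intro y
    rw [bar_apply, Complex.conj_conj]; ring
  rw [Finset.sum_congr rfl fun y _ => h3 y]
  simp only [Finset.sum_add_distrib, Finset.sum_sub_distrib, ← Finset.mul_sum]
  rw [lin_sum (hab h) l hl, lin_sum (hab h) m hm, lin_sum (hab h) _ hba, lin_row (hab h), lin_row (hab h), Finset.sum_const, nsmul_eq_mul,
    Finset.card_univ, ← Nat.card_eq_fintype_card]
  by_cases h4 : m = l <;> by_cases h5 : m = bar l
  · rw [if_pos h4, if_pos h5, if_pos h4, if_pos h5]; field_simp; ring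
  · rw [if_neg h5, if_pos h4, if_pos h4, if_neg h5]; field_simp; ring
  · rw [if_pos h5, if_neg h4, if_neg h4, if_pos h5]; field_simp; ring
  · rw [if_neg h5, if_neg h4, if_neg h4, if_neg h5]; field_simp; ring

theorem al_triv (h : OD K s) {l : IrrCharacter K} (hl : l ≠ BW11.one K) : al l (BW11.one G) = 1 := by
  have hK : (Nat.card K : ℂ) ≠ 0 := by exact_mod_cast Nat.card_pos.ne'
  unfold al
  have h1 : ∑ x : K, ((BW11.one G : IrrCharacter G) : G → ℂ) x * (1 - conj ((l : K → ℂ) x)) = Nat.card K := by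
    have h2 : ∀ x : K, ((BW11.one G : IrrCharacter G) : G → ℂ) x * (1 - conj ((l : K → ℂ) x)) = 1 - conj ((l : K → ℂ) x) := fun x => by
      rw [one_apply, one_mul]
    rw [Finset.sum_congr rfl fun x _ => h2 x, Finset.sum_sub_distrib, ← map_sum, lin_sum (hab h) l hl, map_zero, sub_zero, Finset.sum_const,
      nsmul_eq_mul, mul_one, Finset.card_univ, ← Nat.card_eq_fintype_card]
  rw [h1, inv_mul_cancel₀ hK]

theorem real_z {z : G} (hz2 : z * z = 1) (χ : IrrCharacter G) : conj ((χ : G → ℂ) z) = (χ : G → ℂ) z := by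
  rw [← char_inv_eq_conj (irr_isCharacter χ.2), inv_eq_of_mul_eq_one_left hz2]

theorem mult {z : G} (hz2 : z * z = 1) (y : G) : ∑ χ : IrrCharacter G, (χ : G → ℂ) z ^ 2 * conj ((χ : G → ℂ) y) / (χ : G → ℂ) 1 =
    (Nat.card (centralizer ({z} : Set G)) : ℂ) ^ 2 * Nat.card {a : G // IsConj z a ∧ IsConj z (a * y)} / Nat.card G := by
  have h1 := CfsgLib.Di11.class_mul z y
  rw [← h1]
  refine Finset.sum_congr rfl fun χ _ => ?_
  obtain ⟨n, -, hn⟩ := irr_one_nat χ.2
  rw [map_div₀, map_mul, real_z hz2, hn, Complex.conj_natCast]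
  ring

theorem mult_al (h : OD K s) {l : IrrCharacter K} (hl : l ≠ BW11.one K) {z : G} (hz2 : z * z = 1) {c : ℕ}
    (hc : ∀ x ∈ K, x ≠ 1 → Nat.card {a : G // IsConj z a ∧ IsConj z (a * x)} = c) :
    ∑ χ : IrrCharacter G, (χ : G → ℂ) z ^ 2 / (χ : G → ℂ) 1 * al l χ =
      (Nat.card (centralizer ({z} : Set G)) : ℂ) ^ 2 * c / Nat.card G := by
  classical
  have hK : (Nat.card K : ℂ) ≠ 0 := by exact_mod_cast Nat.card_pos.ne'
  have h1 : ∀ χ : IrrCharacter G, (χ : G → ℂ) z ^ 2 / (χ : G → ℂ) 1 * al l χ =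
      (Nat.card K : ℂ)⁻¹ * ∑ x : K, (1 - (l : K → ℂ) x) * ((χ : G → ℂ) z ^ 2 * conj ((χ : G → ℂ) x) / (χ : G → ℂ) 1) := by
    intro χ
    conv_lhs => rw [conj_al_sum l χ]
    rw [mul_left_comm, Finset.mul_sum]
    congr 1
    exact Finset.sum_congr rfl fun x _ => by ring
  rw [Finset.sum_congr rfl fun χ _ => h1 χ, ← Finset.mul_sum, Finset.sum_comm]
  have h2 : ∀ x : K, ∑ χ : IrrCharacter G, (1 - (l : K → ℂ) x) * ((χ : G → ℂ) z ^ 2 * conj ((χ : G → ℂ) x) / (χ : G → ℂ) 1) =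
      (1 - (l : K → ℂ) x) * ((Nat.card (centralizer ({z} : Set G)) : ℂ) ^ 2 * c / Nat.card G) := by
    intro x
    rw [← Finset.mul_sum]
    by_cases hx : x = 1
    · rw [hx, lin_one (hab h), sub_self, zero_mul, zero_mul]
    · rw [mult hz2, hc x x.2 (fun h0 => hx (Subtype.ext h0))]
  rw [Finset.sum_congr rfl fun x _ => h2 x, ← Finset.sum_mul, Finset.sum_sub_distrib, lin_sum (hab h) l hl, sub_zero, Finset.sum_const,
    nsmul_eq_mul, mul_one, Finset.card_univ, ← Nat.card_eq_fintype_card]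
  field_simp

/-- there is a nontrivial character of `K`, not real -/
theorem exists_l (h : OD K s) : ∃ l : IrrCharacter K, l ≠ BW11.one K ∧ bar l ≠ l := by
  classical
  obtain ⟨x, hx, hx1⟩ := h.nt
  have h1 : ¬ IsConj (⟨x, hx⟩ : K) 1 := by
    intro hc
    rw [isConj_one_left] at hc
    exact hx1 (congrArg Subtype.val hc)
  rw [isConj_iff_irr] at h1
  push Not at h1
  obtain ⟨l, hl⟩ := h1
  have hl1 : l ≠ BW11.one K := by
    rintro rfl
    exact hl rfl
  refine ⟨l, hl1, fun hb => ?_⟩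
  -- `l` real: values `±1`, but odd order
  obtain ⟨y, hy, hyy⟩ := h.sqrt hx
  have h2 : (l : K → ℂ) ⟨x, hx⟩ = (l : K → ℂ) ⟨y, hy⟩ * (l : K → ℂ) ⟨y, hy⟩ := by
    rw [← lin_mul (hab h)]
    have h9 : (⟨x, hx⟩ : K) = ⟨y, hy⟩ * ⟨y, hy⟩ := Subtype.ext hyy.symm
    rw [h9]
  have h3 : conj ((l : K → ℂ) ⟨y, hy⟩) = (l : K → ℂ) ⟨y, hy⟩ := by
    rw [← bar_apply, hb]
  have h4 : (l : K → ℂ) ⟨y, hy⟩ * conj ((l : K → ℂ) ⟨y, hy⟩) = 1 := by
    rw [← lin_inv, ← lin_mul (hab h), mul_inv_cancel, lin_one (hab h)]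
  rw [h3] at h4
  apply hl
  rw [h2, h4, lin_one (hab h)]

/-- the three-term relation -/
theorem three (h : OD K s) : ∃ (χ ψ : IrrCharacter G) (α β : ℤ), χ ≠ BW11.one G ∧ ψ ≠ BW11.one G ∧ χ ≠ ψ ∧
    (α = 1 ∨ α = -1) ∧ (β = 1 ∨ β = -1) ∧
    (∀ y : G, Off K y → 1 + (α : ℂ) * conj ((χ : G → ℂ) y) + (β : ℂ) * conj ((ψ : G → ℂ) y) = 0) ∧
    (∀ z : G, z * z = 1 → ∀ c : ℕ, (∀ x ∈ K, x ≠ 1 → Nat.card {a : G // IsConj z a ∧ IsConj z (a * x)} = c) →
      1 + (α : ℂ) * ((χ : G → ℂ) z ^ 2 / (χ : G → ℂ) 1) + (β : ℂ) * ((ψ : G → ℂ) z ^ 2 / (ψ : G → ℂ) 1) =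
        (Nat.card (centralizer ({z} : Set G)) : ℂ) ^ 2 * c / Nat.card G) := by
  classical
  obtain ⟨l, hl1, hlb⟩ := exists_l h
  choose A hA using (fun χ : IrrCharacter G => al_int l χ)
  have h1 : A (BW11.one G) = 1 := by
    have := al_triv h hl1
    rw [hA] at this
    exact_mod_cast this
  have h2 : ∑ χ : IrrCharacter G, A χ ^ 2 = 3 := by
    have := al_inner h hl1 hl1
    rw [if_pos rfl, if_neg (fun h0 => hlb h0.symm)] at this
    have e : ((∑ χ : IrrCharacter G, A χ ^ 2 : ℤ) : ℂ) = ((3 : ℤ) : ℂ) := by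
      push_cast
      rw [show (3 : ℂ) = 2 + 1 + 0 by norm_num, ← this]
      exact Finset.sum_congr rfl fun χ _ => by rw [hA, pow_two]
    exact_mod_cast e
  obtain ⟨χ, ψ, hχ, hψ, hne, hα, hβ, hz⟩ := supp3 h1 h2
  refine ⟨χ, ψ, A χ, A ψ, hχ, hψ, hne, hα, hβ, ?_, ?_⟩
  · intro y hy
    have h3 := sum_off h l hy
    rw [sum3 (fun χ : IrrCharacter G => al l χ * conj ((χ : G → ℂ) y)) (a := BW11.one G) (b := χ) (c := ψ) hχ hψ hne
      (fun m m0 m1 m2 => by rw [hA, hz m m0 m1 m2]; push_cast; ring)] at h3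
    simp only [hA, h1] at h3
    rw [one_apply, map_one] at h3
    push_cast at h3
    rw [← h3]; ring
  · intro z hz2 c hc
    have h3 := mult_al h hl1 hz2 hc
    rw [sum3 (fun χ : IrrCharacter G => (χ : G → ℂ) z ^ 2 / (χ : G → ℂ) 1 * al l χ) (a := BW11.one G) (b := χ) (c := ψ) hχ hψ hne
      (fun m m0 m1 m2 => by rw [hA, hz m m0 m1 m2]; push_cast; ring)] at h3
    simp only [hA, h1] at h3
    rw [one_apply, one_apply] at h3
    push_cast at h3
    rw [← h3]; ring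

theorem int_val (χ : IrrCharacter G) {z : G} (hz2 : z * z = 1) (hz1 : z ≠ 1) : ∃ v : ℤ, (χ : G → ℂ) z = v := by
  apply CfsgLib.GalChar.exists_int_of_fixed (char_isIntegral (irr_isCharacter χ.2) z)
  intro σ
  obtain ⟨k, hk, hk2⟩ := CfsgLib.GalChar.exists_coprime_of_gal G σ
  rw [← hk2 _ (irr_isCharacter χ.2)]
  have h2 : 2 ∣ Nat.card G := by
    have := orderOf_dvd_natCard z
    rwa [orderOf_eq_prime (by rw [pow_two]; exact hz2) hz1] at this
  have hk' : ¬ 2 ∣ k := by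
    intro h3
    have := Nat.dvd_gcd h3 h2
    rw [hk] at this
    omega
  obtain ⟨m, hm⟩ : ∃ m, k = 2 * m + 1 := ⟨k / 2, by omega⟩
  rw [hm, pow_succ, pow_mul, pow_two, hz2, one_pow, one_mul]

/-- the degree relation -/
theorem main [IsSimpleGroup G] (hna : ∃ a b : G, a * b ≠ b * a) (h : OD K s) :
    ∃ (χ : IrrCharacter G) (m : ℕ) (a : ℤ), 2 ≤ m ∧ m ∣ Nat.card G ∧ (m + 1) ∣ Nat.card G ∧ (m + 1) ^ 2 < Nat.card G ∧
      (χ : G → ℂ) 1 = m ∧ (χ : G → ℂ) s = a ∧ |a| ≤ m ∧ χ ≠ BW11.one G ∧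
      ((Nat.card (centralizer ({s} : Set G)) : ℤ) ^ 2 * Nat.card K * m * (m + 1) = Nat.card G * (m - a) ^ 2) ∧
      (∀ z : G, z * z = 1 → z ≠ 1 → IsConj z s) := by
  classical
  have hG : (Nat.card G : ℂ) ≠ 0 := by exact_mod_cast Nat.card_pos.ne'
  have hoff1 : Off K (1 : G) := by
    intro x _ hx1 hc
    rw [isConj_one_left] at hc
    exact hx1 hc
  have hoffz : ∀ z : G, z * z = 1 → z ≠ 1 → Off K z := by
    intro z hz2 hz1 x hx hx1 hc
    obtain ⟨g, hg⟩ := isConj_iff.1 hc.symm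
    apply hx1
    apply h.uniq x hx
    rw [← hg]
    calc g * z * g⁻¹ * (g * z * g⁻¹) = g * (z * z) * g⁻¹ := by group
      _ = 1 := by rw [hz2]; group
  obtain ⟨χ, ψ, α, β, hχ, hψ, hne, hα, hβ, hlin, hq⟩ := three h
  -- reduce to `α = 1`, `β = -1`
  have key : ∀ (χ ψ : IrrCharacter G), χ ≠ BW11.one G → ψ ≠ BW11.one G →
      (∀ y : G, Off K y → 1 + conj ((χ : G → ℂ) y) - conj ((ψ : G → ℂ) y) = 0) →
      (∀ z : G, z * z = 1 → ∀ c : ℕ, (∀ x ∈ K, x ≠ 1 → Nat.card {a : G // IsConj z a ∧ IsConj z (a * x)} = c) →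
      1 + ((χ : G → ℂ) z ^ 2 / (χ : G → ℂ) 1) - ((ψ : G → ℂ) z ^ 2 / (ψ : G → ℂ) 1) =
        (Nat.card (centralizer ({z} : Set G)) : ℂ) ^ 2 * c / Nat.card G) →
      ∃ (χ : IrrCharacter G) (m : ℕ) (a : ℤ), 2 ≤ m ∧ m ∣ Nat.card G ∧ (m + 1) ∣ Nat.card G ∧ (m + 1) ^ 2 < Nat.card G ∧
      (χ : G → ℂ) 1 = m ∧ (χ : G → ℂ) s = a ∧ |a| ≤ m ∧ χ ≠ BW11.one G ∧
      ((Nat.card (centralizer ({s} : Set G)) : ℤ) ^ 2 * Nat.card K * m * (m + 1) = Nat.card G * (m - a) ^ 2) ∧
      (∀ z : G, z * z = 1 → z ≠ 1 → IsConj z s) := by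
    intro χ ψ hχ hψ hlin hq
    obtain ⟨m, hm0, hm⟩ := irr_one_nat χ.2
    obtain ⟨n, hn0, hn⟩ := irr_one_nat ψ.2
    have h1 := hlin 1 hoff1
    rw [hm, hn, Complex.conj_natCast, Complex.conj_natCast] at h1
    have hnm : n = m + 1 := by
      have : (n : ℂ) = m + 1 := by linear_combination -h1
      exact_mod_cast this
    subst hnm
    have hval : ∀ z : G, z * z = 1 → z ≠ 1 → ∀ c : ℕ, (∀ x ∈ K, x ≠ 1 → Nat.card {a : G // IsConj z a ∧ IsConj z (a * x)} = c) →
        ∃ a : ℤ, (χ : G → ℂ) z = a ∧ ((Nat.card (centralizer ({z} : Set G)) : ℤ) ^ 2 * c * m * (m + 1) = Nat.card G * (m - a) ^ 2) := by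
      intro z hz2 hz1 c hc
      obtain ⟨a, ha⟩ := int_val χ hz2 hz1
      obtain ⟨b, hb⟩ := int_val ψ hz2 hz1
      have h2 := hlin z (hoffz z hz2 hz1)
      rw [real_z hz2, real_z hz2, ha, hb] at h2
      have hba : b = 1 + a := by
        have : (b : ℂ) = 1 + a := by linear_combination -h2
        exact_mod_cast this
      refine ⟨a, ha, ?_⟩
      have h3 := hq z hz2 c hc
      rw [ha, hb, hm, hn, hba] at h3
      have hm1 : (m : ℂ) ≠ 0 := by exact_mod_cast hm0.ne'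
      have hm2 : ((m : ℂ) + 1) ≠ 0 := by exact_mod_cast (Nat.succ_ne_zero m)
      push_cast at h3
      rw [eq_div_iff hG] at h3
      field_simp at h3
      have h4 : ((((Nat.card (centralizer ({z} : Set G)) : ℤ) ^ 2 * c * m * (m + 1)) : ℤ) : ℂ) =
          ((Nat.card G * (m - a) ^ 2 : ℤ) : ℂ) := by
        push_cast
        linear_combination -h3
      exact_mod_cast h4
    obtain ⟨a, ha, hform⟩ := hval s h.s2 h.s1 (Nat.card K) (fun x hx hx1 => h.card_refl hx hx1)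
    have hdeg : ∀ θ : IrrCharacter G, ∀ k : ℕ, (θ : G → ℂ) 1 = k → k ∣ Nat.card G := by
      intro θ k hk
      have h5 : charDegree (θ : G → ℂ) = k := by
        have := CfsgLib.CharInt.irr_one_eq_charDegree θ.2
        rw [hk] at this
        exact_mod_cast this.symm
      rw [← h5]
      exact CfsgLib.CharInt2.charDegree_dvd_card θ.2
    have hm2 : 2 ≤ m := by
      by_contra hcon
      have hm1 : m = 1 := by omega
      apply hχ
      apply Subtype.ext
      exact CfsgLib.BlkSmall.linear_trivial hna χ (by rw [hm, hm1]; norm_num)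
    have hker : ∀ g : G, (χ : G → ℂ) g = (χ : G → ℂ) 1 → g = 1 := by
      intro g hg
      obtain ⟨L, hL, hL2⟩ := exists_kernel (irr_isCharacter χ.2)
      rcases hL.eq_bot_or_eq_top with h5 | h5
      · have := (hL2 g).2 hg
        rw [h5, mem_bot] at this
        exact this
      · exfalso
        apply hχ
        have h6 : ∀ x, (χ : G → ℂ) x = m := fun x => by rw [← hm]; exact (hL2 x).1 (by rw [h5]; trivial)
        have h7 := irr_inner_ne χ.2 (BW11.one G).2 (fun h0 => hχ (Subtype.ext h0))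
        unfold classInner at h7
        exfalso
        have h8 : ∑ g : G, (χ : G → ℂ) g * conj ((BW11.one G : G → ℂ) g) = Nat.card G * m := by
          rw [Finset.sum_congr rfl fun g _ => by rw [h6 g, one_apply, map_one, mul_one], Finset.sum_const, nsmul_eq_mul,
            Finset.card_univ, ← Nat.card_eq_fintype_card]
        rw [h8, inv_mul_cancel_left₀ hG] at h7
        have : m = 0 := by exact_mod_cast h7
        omega
    refine ⟨χ, m, a, hm2, hdeg χ m hm, hdeg ψ (m + 1) hn, ?_, hm, ha, ?_, hχ, hform, ?_⟩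
    · -- sum of squares
      have h5 := sum_sq_degree (G := G)
      have h6 : ((m + 1 : ℕ) : ℂ) ^ 2 + 1 + ∑ θ ∈ (Finset.univ.erase (BW11.one G)).erase ψ, (θ : G → ℂ) 1 ^ 2 = Nat.card G := by
        rw [← h5, ← Finset.add_sum_erase _ _ (Finset.mem_univ (BW11.one G)), ← Finset.add_sum_erase _ _ (Finset.mem_erase.2 ⟨hψ, Finset.mem_univ ψ⟩),
          one_apply, hn]
        ring
      choose D hD using (fun θ : IrrCharacter G => irr_one_nat θ.2)
      have h7 : ∑ θ ∈ (Finset.univ.erase (BW11.one G)).erase ψ, (θ : G → ℂ) 1 ^ 2 =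
          ((∑ θ ∈ (Finset.univ.erase (BW11.one G)).erase ψ, D θ ^ 2 : ℕ) : ℂ) := by
        push_cast
        exact Finset.sum_congr rfl fun θ _ => by rw [(hD θ).2]
      rw [h7] at h6
      have h8 : (m + 1) ^ 2 + 1 + ∑ θ ∈ (Finset.univ.erase (BW11.one G)).erase ψ, D θ ^ 2 = Nat.card G := by exact_mod_cast h6
      omega
    · have h5 := char_norm_le (irr_isCharacter χ.2) s
      rw [ha, hm, Complex.norm_intCast, Complex.natCast_re] at h5
      exact_mod_cast h5
    · intro z hz2 hz1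
      by_contra hzs
      obtain ⟨b, hb, hform'⟩ := hval z hz2 hz1 0 (fun x hx hx1 => h.card_refl_zero hz2 hz1 hzs hx hx1)
      have h5 : ((m : ℤ) - b) ^ 2 = 0 := by
        have h6 : (Nat.card G : ℤ) * (m - b) ^ 2 = 0 := by rw [← hform']; push_cast; ring
        rcases mul_eq_zero.1 h6 with h7 | h7
        · exfalso
          have : Nat.card G = 0 := by exact_mod_cast h7
          exact Nat.card_pos.ne' this
        · exact h7
      have h6 : b = m := by
        have := pow_eq_zero_iff (two_ne_zero) |>.1 h5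
        linarith
      apply hz1
      apply hker
      rw [hb, hm, h6]; push_cast; rfl
  have h1 := hlin 1 hoff1
  obtain ⟨m, hm0, hm⟩ := irr_one_nat χ.2
  obtain ⟨n, hn0, hn⟩ := irr_one_nat ψ.2
  rw [hm, hn, Complex.conj_natCast, Complex.conj_natCast] at h1
  have h1' : 1 + α * m + β * n = 0 := by exact_mod_cast h1
  rcases hα with rfl | rfl <;> rcases hβ with rfl | rfl
  · exfalso; omega
  · refine key χ ψ hχ hψ (fun y hy => ?_) (fun z hz2 c hc => ?_)
    · rw [← hlin y hy]; push_cast; ring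
    · rw [← hq z hz2 c hc]; push_cast; ring
  · refine key ψ χ hψ hχ (fun y hy => ?_) (fun z hz2 c hc => ?_)
    · rw [← hlin y hy]; push_cast; ring
    · rw [← hq z hz2 c hc]; push_cast; ring
  · exfalso; omega

end
end CfsgLib.E2H12
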