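import Mathlib
import Cfsg.Agent.LibOrdH12
import Cfsg.Agent.S0144

/-!
# Orders of simple groups (helper12)
-/

set_option autoImplicit false
set_option linter.style.haveILetI false
set_option linter.unusedSectionVars false

namespace CfsgLib.OrdH12

open Subgroup CfsgLib.SmallSyl

universe u

variable {G : Type u} [Group G] [Finite G]

/-- fixed points of an automorphism of prime order -/
theorem fix_mod {Q : Type*} [Group Q] [Finite Q] (σ : MulAut Q) {r : ℕ} (hr : r.Prime) (hσ : orderOf σ = r) :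
    ∃ F : Subgroup Q, F ≠ ⊤ ∧ Nat.card Q ≡ Nat.card F [MOD r] := by
  haveI : Fact r.Prime := ⟨hr⟩
  have hz : IsPGroup r (Subgroup.zpowers σ) := IsPGroup.of_card (n := 1) (by rw [Nat.card_zpowers, hσ, pow_one])
  have hmod := hz.card_modEq_card_fixedPoints Q
  let F : Subgroup Q := (σ : MulAut Q).toMonoidHom.eqLocus (MonoidHom.id Q)
  have hF : ∀ x, x ∈ F ↔ σ x = x := fun x => Iff.rfl
  have hfix : MulAction.fixedPoints (Subgroup.zpowers σ) Q = (F : Set Q) := by
    ext x
    rw [MulAction.mem_fixedPoints, SetLike.mem_coe, hF]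
    constructor
    · intro h
      exact h ⟨σ, Subgroup.mem_zpowers σ⟩
    · rintro h ⟨_, k, rfl⟩
      change (σ ^ k) x = x
      have h1 : σ ∈ MulAction.stabilizer (MulAut Q) x := h
      have h2 : σ ^ k ∈ MulAction.stabilizer (MulAut Q) x := zpow_mem h1 k
      exact h2
  rw [hfix] at hmod
  refine ⟨F, ?_, hmod⟩
  intro h
  have h1 : σ = 1 := by
    ext x
    have : x ∈ F := by rw [h]; exact Subgroup.mem_top _
    exact this
  rw [h1, orderOf_one] at hσ
  exact hr.one_lt.ne hσ

theorem not_solvable [IsSimpleGroup G] (hnc : ¬ IsMulCommutative G) : ¬ Group.IsSolvable G := by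
  intro h
  haveI := h
  apply hnc
  refine ⟨⟨fun a b => ?_⟩⟩
  exact (IsSimpleGroup.comm_iff_isSolvable.2 h) a b

/-- order `12 s` -/
theorem order12 [IsSimpleGroup G] (hnc : ¬ IsMulCommutative G) {s : ℕ} (hs : s.Prime) (hs2 : s ≠ 2) (hs3 : s ≠ 3)
    (hG : Nat.card G = 12 * s) : s = 5 := by
  haveI : Fact s.Prime := ⟨hs⟩
  have hs5 : 5 ≤ s := by
    have := hs.two_le
    by_contra hcon
    have h4 : s = 4 := by omega
    rw [h4] at hs
    norm_num at hs
  have hdvd : s ∣ Nat.card G := by rw [hG]; exact dvd_mul_left _ _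
  have h1 := one_lt_card_sylow hnc hdvd
  have hs12 : ¬ s ∣ 12 := by
    intro h
    have h3 : s ∣ 2 ^ 2 * 3 := h
    rcases hs.dvd_mul.1 h3 with h4 | h4
    · exact hs2 ((Nat.prime_dvd_prime_iff_eq hs Nat.prime_two).1 (hs.dvd_of_dvd_pow h4))
    · exact hs3 ((Nat.prime_dvd_prime_iff_eq hs Nat.prime_three).1 h4)
  have h2 := card_sylow_dvd (p := s) (n := 1) (m := 12) (G := G) (by rw [hG, pow_one, mul_comm]) hs12
  have h3 : Nat.card (Sylow s G) ≡ 1 [MOD s] := card_sylow_modEq_one s G
  have h4 : s ∣ Nat.card (Sylow s G) - 1 := (Nat.modEq_iff_dvd' h1.le).1 h3.symm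
  have h6 : Nat.card (Sylow s G) ∈ Nat.divisors 12 := Nat.mem_divisors.2 ⟨h2, by norm_num⟩
  rw [show Nat.divisors 12 = {1, 2, 3, 4, 6, 12} from by decide +kernel] at h6
  simp only [Finset.mem_insert, Finset.mem_singleton] at h6
  have h5p : ∀ k, k.Prime → s ∣ k → s = k := fun k hk h => (Nat.prime_dvd_prime_iff_eq hs hk).1 h
  rcases h6 with h | h | h | h | h | h
  · omega
  · rw [h] at h4; have := Nat.le_of_dvd (by norm_num) h4; omega
  · rw [h] at h4; have := Nat.le_of_dvd (by norm_num) h4; omega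
  · rw [h] at h4; have := Nat.le_of_dvd (by norm_num) h4; omega
  · rw [h] at h4; exact h5p 5 (by norm_num) h4
  · exfalso
    rw [h] at h4
    have h7 := h5p 11 (by norm_num) h4
    let P : Sylow s G := default
    have h8 := card_normalizer_mul P
    rw [h, hG] at h8
    have h9 : Nat.card (normalizer ((P : Subgroup G) : Set G)) = 11 := by omega
    have hP : Nat.card (P : Subgroup G) = s := by
      have := card_sylow (p := s) (n := 1) (m := 12) (G := G) (by rw [hG, pow_one, mul_comm]) hs12 P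
      rw [this, pow_one]
    exact burnside hnc hdvd P (cent_of_coprime' _ hs hP (by rw [h9, h7]; norm_num))

theorem s0988 [IsSimpleGroup G] (p q r : ℕ) (hp : p.Prime) (hq : q.Prime) (hr : r.Prime)
    (hG : Nat.card G = p ^ 2 * q * r) : Nat.card G = 60 := by
  haveI : Fact p.Prime := ⟨hp⟩
  have hnc : ¬ IsMulCommutative G := by
    apply notComm
    rw [hG]
    intro h
    have h1 : p ^ 2 * q * r = p * (p * q * r) := by ring
    rw [h1] at h
    have h3 := hp.one_lt
    have h4 := hq.one_lt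
    have h5 := hr.one_lt
    refine Nat.not_prime_mul h3.ne' ?_ h
    have : 1 < p * q * r := by
      calc 1 < p * q := Nat.one_lt_mul_iff.2 ⟨by omega, by omega, Or.inl h3⟩
        _ ≤ p * q * r := Nat.le_mul_of_pos_right _ (by omega)
    exact this.ne'
  have hns := not_solvable hnc
  by_cases hpq : p = q
  · exfalso
    subst hpq
    exact hns (Cfsg.Agent.S0144.result p r 3 1 hp hr (by rw [hG]; ring))
  by_cases hpr : p = r
  · exfalso
    subst hpr
    exact hns (Cfsg.Agent.S0144.result p q 3 1 hp hq (by rw [hG]; ring))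
  by_cases hqr : q = r
  · exfalso
    subst hqr
    exact hns (Cfsg.Agent.S0144.result p q 2 2 hp hq (by rw [hG]; ring))
  have hqp : ¬ q ∣ p := fun h => hpq ((Nat.prime_dvd_prime_iff_eq hq hp).1 h).symm
  have hrp : ¬ r ∣ p := fun h => hpr ((Nat.prime_dvd_prime_iff_eq hr hp).1 h).symm
  have hrq : ¬ r ∣ q := fun h => hqr ((Nat.prime_dvd_prime_iff_eq hr hq).1 h).symm
  have hqr' : ¬ q ∣ r := fun h => hqr ((Nat.prime_dvd_prime_iff_eq hq hr).1 h)
  have hpqr : ¬ p ∣ q * r := by
    intro h
    rcases hp.dvd_mul.1 h with h1 | h1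
    · exact hpq ((Nat.prime_dvd_prime_iff_eq hp hq).1 h1)
    · exact hpr ((Nat.prime_dvd_prime_iff_eq hp hr).1 h1)
  -- the smallest prime divisor is `p`
  have hG1 : Nat.card G ≠ 1 := by
    intro h
    rw [hG] at h
    exact hp.one_lt.ne' (Nat.eq_one_of_mul_eq_one_right (by rw [sq, mul_assoc, mul_assoc] at h; exact h))
  have hcyc : ∀ s : ℕ, s.Prime → ∀ m : ℕ, Nat.card G = s ^ 1 * m → ¬ s ∣ m → (Nat.card G).minFac ≠ s := by
    intro s hs m hm hsm hmin
    haveI : Fact s.Prime := ⟨hs⟩
    let S : Sylow s G := default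
    have hS := card_sylow (p := s) hm hsm S
    haveI : IsCyclic (S : Subgroup G) := isCyclic_of_prime_card (p := s) (by rw [hS, pow_one])
    exact burnside hnc (by rw [hm, pow_one]; exact dvd_mul_right _ _) S (IsCyclic.normalizer_le_centralizer hmin inferInstance)
  have hminq := hcyc q hq (p ^ 2 * r) (by rw [hG]; ring) (by
    intro h
    rcases hq.dvd_mul.1 h with h1 | h1
    · exact hqp (hq.dvd_of_dvd_pow h1)
    · exact hqr' h1)
  have hminr := hcyc r hr (p ^ 2 * q) (by rw [hG]; ring) (by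
    intro h
    rcases hr.dvd_mul.1 h with h1 | h1
    · exact hrp (hr.dvd_of_dvd_pow h1)
    · exact hrq h1)
  have hmp : (Nat.card G).minFac.Prime := Nat.minFac_prime hG1
  have hminp : (Nat.card G).minFac = p := by
    have h1 := Nat.minFac_dvd (Nat.card G)
    conv_rhs at h1 => rw [hG]
    rcases hmp.dvd_mul.1 h1 with h2 | h2
    · rcases hmp.dvd_mul.1 h2 with h3 | h3
      · exact (Nat.prime_dvd_prime_iff_eq hmp hp).1 (hmp.dvd_of_dvd_pow h3)
      · exact absurd ((Nat.prime_dvd_prime_iff_eq hmp hq).1 h3) hminq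
    · exact absurd ((Nat.prime_dvd_prime_iff_eq hmp hr).1 h2) hminr
  have hple : ∀ s, s.Prime → s ∣ Nat.card G → p ≤ s := by
    intro s hs h
    rw [← hminp]
    exact Nat.minFac_le_of_dvd hs.two_le h
  let P : Sylow p G := default
  have hP : Nat.card (P : Subgroup G) = p ^ 2 := card_sylow (p := p) (n := 2) (m := q * r) (by rw [hG]; ring) hpqr P
  have hPcomm := IsPGroup.commutative_of_card_eq_prime_sq (G := (P : Subgroup G)) hP
  have hpdvd : p ∣ Nat.card G := by rw [hG, sq]; exact ⟨p * q * r, by ring⟩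
  have hb := burnside hnc hpdvd P
  obtain ⟨g, hg, hgC⟩ := SetLike.not_le_iff_exists.1 hb
  set φ := (P : Subgroup G).normalizerMonoidHom with hφ
  have hφg : φ ⟨g, hg⟩ ≠ 1 := by
    intro h
    apply hgC
    rw [mem_centralizer_iff]
    intro x hx
    have h2 := congrArg (fun f : MulAut (P : Subgroup G) => ((f ⟨x, hx⟩ : (P : Subgroup G)) : G)) h
    have h3 : g * x * g⁻¹ = x := h2
    rw [mul_inv_eq_iff_eq_mul] at h3
    exact h3.symm
  -- the order of the range divides qr
  have hrange : orderOf (φ ⟨g, hg⟩) ∣ q * r := by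
    have h1 : orderOf (φ ⟨g, hg⟩) ∣ Nat.card φ.range := by
      have h0 : orderOf (⟨φ ⟨g, hg⟩, ⟨_, rfl⟩⟩ : φ.range) = orderOf (φ ⟨g, hg⟩) := Subgroup.orderOf_mk _ _
      rw [← h0]
      exact orderOf_dvd_natCard _
    have h2 : Nat.card φ.range = φ.ker.index := (Subgroup.index_ker φ).symm
    have h3 : (P : Subgroup G).subgroupOf (normalizer ((P : Subgroup G) : Set G)) ≤ φ.ker := by
      intro x hx
      rw [MonoidHom.mem_ker]
      ext y
      change (x : G) * y * (x : G)⁻¹ = y
      have := congrArg Subtype.val (hPcomm ⟨x, Subgroup.mem_subgroupOf.1 hx⟩ y)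
      have h4 : (x : G) * y = y * x := this
      rw [h4, mul_inv_cancel_right]
    have h4 : φ.ker.index ∣ ((P : Subgroup G).subgroupOf (normalizer ((P : Subgroup G) : Set G))).index :=
      Subgroup.index_dvd_of_le h3
    have h5 : (P : Subgroup G).relIndex (normalizer ((P : Subgroup G) : Set G)) ∣ (P : Subgroup G).index :=
      Subgroup.relIndex_dvd_index_of_le Subgroup.le_normalizer
    have h6 : (P : Subgroup G).index = q * r := by
      have h7 := (P : Subgroup G).card_mul_index
      rw [hP, hG, mul_assoc] at h7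
      exact Nat.eq_of_mul_eq_mul_left (pow_pos hp.pos 2) h7
    rw [← h6]
    exact (h1.trans (h2 ▸ h4)).trans h5
  have ho1 : orderOf (φ ⟨g, hg⟩) ≠ 1 := fun h => hφg (orderOf_eq_one_iff.1 h)
  obtain ⟨l, hl, hld⟩ := Nat.exists_prime_and_dvd ho1
  have hl' : l = q ∨ l = r := by
    rcases hl.dvd_mul.1 (hld.trans hrange) with h | h
    · exact Or.inl ((Nat.prime_dvd_prime_iff_eq hl hq).1 h)
    · exact Or.inr ((Nat.prime_dvd_prime_iff_eq hl hr).1 h)
  have hlG : l ∣ Nat.card G := by
    rw [hG]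
    rcases hl' with rfl | rfl
    · exact ⟨p ^ 2 * r, by ring⟩
    · exact ⟨p ^ 2 * q, by ring⟩
  have hlp : p ≠ l := by
    rcases hl' with rfl | rfl
    · exact hpq
    · exact hpr
  have hpl : p < l := lt_of_le_of_ne (hple l hl hlG) hlp
  obtain ⟨F, hF, hmod⟩ := fix_mod ((φ ⟨g, hg⟩) ^ (orderOf (φ ⟨g, hg⟩) / l)) hl
    (orderOf_pow_orderOf_div (orderOf_pos _).ne' hld)
  have hFd : Nat.card F ∣ p ^ 2 := by rw [← hP]; exact Subgroup.card_subgroup_dvd_card F
  have hl3 : l = p + 1 := by
    have hFlt : Nat.card F < p ^ 2 := by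
      rw [← hP]
      rcases lt_or_ge (Nat.card F) (Nat.card (P : Subgroup G)) with h | h
      · exact h
      · exact absurd (Subgroup.eq_top_of_le_card F h) hF
    have hmod' : Nat.card F ≡ p ^ 2 [MOD l] := by
      have := hmod.symm
      rwa [hP] at this
    have h7 : l ∣ p ^ 2 - Nat.card F := (Nat.modEq_iff_dvd' hFlt.le).1 hmod'
    have h8 : l ∣ p - 1 ∨ l ∣ p + 1 := by
      have hp1 := hp.one_lt
      obtain ⟨j, hj, hjF⟩ := (Nat.dvd_prime_pow hp).1 hFd
      have hj2 : j ≠ 2 := by
        rintro rfl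
        omega
      have hj' : j = 0 ∨ j = 1 := by omega
      rcases hj' with rfl | rfl
      · rw [hjF] at h7
        have h9 : p ^ 2 - p ^ 0 = (p - 1) * (p + 1) := by
          obtain ⟨k, rfl⟩ : ∃ k, p = k + 1 := ⟨p - 1, by omega⟩
          rw [pow_zero, Nat.add_sub_cancel]
          have : (k + 1) ^ 2 = k * (k + 1 + 1) + 1 := by ring
          omega
        rw [h9] at h7
        exact hl.dvd_mul.1 h7
      · rw [hjF] at h7
        have h9 : p ^ 2 - p ^ 1 = p * (p - 1) := by
          obtain ⟨k, rfl⟩ : ∃ k, p = k + 1 := ⟨p - 1, by omega⟩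
          rw [pow_one, Nat.add_sub_cancel]
          have : (k + 1) ^ 2 = (k + 1) * k + (k + 1) := by ring
          omega
        rw [h9] at h7
        rcases hl.dvd_mul.1 h7 with h10 | h10
        · exact absurd ((Nat.prime_dvd_prime_iff_eq hl hp).1 h10).symm hlp
        · exact Or.inl h10
    rcases h8 with h8 | h8
    · have := Nat.le_of_dvd (by have := hp.one_lt; omega) h8
      omega
    · have := Nat.le_of_dvd (by omega) h8
      omega
  have hp2 : p = 2 := by
    rcases hp.eq_two_or_odd' with h | h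
    · exact h
    · exfalso
      have h9 : Even l := by rw [hl3]; exact h.add_one
      have h10 := (hl.even_iff).1 h9
      have := hp.two_le
      omega
  subst hp2
  have hl33 : l = 3 := by omega
  rcases hl' with h | h
  · have hq3 : q = 3 := by omega
    subst hq3
    have h5 := order12 hnc hr (Ne.symm hpr) (Ne.symm hqr) (by rw [hG]; norm_num)
    rw [hG, h5]; norm_num
  · have hr3 : r = 3 := by omega
    subst hr3
    have h5 := order12 hnc hq (Ne.symm hpq) hqr (by rw [hG]; ring)
    rw [hG, h5]; norm_num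

end CfsgLib.OrdH12
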