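import Mathlib
import Cfsg.Agent.LibOrdH12b
import Cfsg.Agent.S0904

/-!
# Orders of simple groups (helper12)
-/

set_option autoImplicit false
set_option linter.style.haveILetI false
set_option linter.unusedSectionVars false

namespace CfsgLib.OrdH12

open Subgroup CfsgLib.SmallSyl

universe u

variable {G : Type u} [Group G] [Finite G]

theorem norm_dvd {S : Subgroup G} {r : ℕ} (hr : r.Prime) (hS : Nat.card S = r) (hC : centralizer (S : Set G) = S) :
    Nat.card (normalizer (S : Set G)) ∣ r * (r - 1) := by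
  haveI : Fact r.Prime := ⟨hr⟩
  haveI : IsCyclic S := isCyclic_of_prime_card hS
  have h1 := (S.normalizerMonoidHom).ker.card_mul_index
  rw [← h1]
  have h2 : Nat.card (S.normalizerMonoidHom).ker = r := by
    rw [normalizerMonoidHom_ker, hC, Nat.card_congr (Subgroup.subgroupOfEquivOfLe Subgroup.le_normalizer).toEquiv, hS]
  have h3 : (S.normalizerMonoidHom).ker.index ∣ r - 1 := by
    rw [Subgroup.index_ker]
    have h4 : Nat.card (MulAut S) = r - 1 := by
      rw [IsCyclic.card_mulAut, hS, Nat.totient_prime hr]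
    rw [← h4]
    exact Subgroup.card_subgroup_dvd_card _
  rw [h2]
  exact Nat.mul_dvd_mul_left r h3

theorem s1001 [IsSimpleGroup G] (p a b : ℕ) (hp : p.Prime) (hG : Nat.card G = p * 3 ^ a * 2 ^ b) (x : G) (hx : orderOf x = p) :
    centralizer ({x} : Set G) = zpowers x := by
  haveI : Fact p.Prime := ⟨hp⟩
  have hsolv : Group.IsSolvable G → centralizer ({x} : Set G) = zpowers x := by
    intro hs
    haveI := hs
    have hcomm : ∀ a b : G, a * b = b * a := IsSimpleGroup.comm_iff_isSolvable.2 hs
    letI : CommGroup G := { (inferInstance : Group G) with mul_comm := hcomm }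
    have hpr := IsSimpleGroup.prime_card (α := G)
    have h1 : zpowers x = ⊤ := by
      apply Subgroup.eq_top_of_card_eq
      rw [Nat.card_zpowers]
      rcases (Nat.dvd_prime hpr).1 (orderOf_dvd_natCard x) with h2 | h2
      · rw [hx] at h2; exact absurd h2 hp.one_lt.ne'
      · exact h2
    rw [h1, eq_top_iff]
    intro y _
    rw [mem_centralizer_singleton_iff]
    exact hcomm _ _
  by_cases h2 : p = 2
  · subst h2
    exact hsolv (Cfsg.Agent.S0144.result 3 2 a (b + 1) Nat.prime_three Nat.prime_two (by rw [hG]; ring))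
  by_cases h3 : p = 3
  · subst h3
    exact hsolv (Cfsg.Agent.S0144.result 3 2 (a + 1) b Nat.prime_three Nat.prime_two (by rw [hG]; ring))
  have hzp : IsPGroup p (zpowers x) := IsPGroup.of_card (n := 1) (by rw [Nat.card_zpowers, hx, pow_one])
  obtain ⟨S, hS⟩ := hzp.exists_le_sylow
  have hpm : ¬ p ∣ 3 ^ a * 2 ^ b := by
    intro h
    rcases hp.dvd_mul.1 h with h4 | h4
    · exact h3 ((Nat.prime_dvd_prime_iff_eq hp Nat.prime_three).1 (hp.dvd_of_dvd_pow h4))
    · exact h2 ((Nat.prime_dvd_prime_iff_eq hp Nat.prime_two).1 (hp.dvd_of_dvd_pow h4))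
  have hSc := card_sylow (p := p) (n := 1) (m := 3 ^ a * 2 ^ b) (G := G) (by rw [hG]; ring) hpm S
  have hzS : zpowers x = S := Subgroup.eq_of_le_of_card_ge hS (by rw [hSc, Nat.card_zpowers, hx, pow_one])
  have hC := Cfsg.Agent.S0904.result (G := G) 3 2 p a b Nat.prime_three Nat.prime_two (by norm_num) (Ne.symm h3) (Ne.symm h2)
    (by rw [hG]; ring) S
  rw [hzS, ← hC]
  ext y
  rw [mem_centralizer_singleton_iff, mem_centralizer_iff]
  constructor
  · intro h z hz
    have hz' : z ∈ zpowers x := by rw [hzS]; exact hz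
    obtain ⟨k, rfl⟩ := hz'
    exact ((show Commute y x from h).zpow_right k).eq.symm
  · intro h
    exact (h x (hS (mem_zpowers x))).symm

theorem s1016 [IsSimpleGroup G] : Nat.card G ≠ 1440 := by
  intro hG
  haveI : Fact (Nat.Prime 5) := ⟨by norm_num⟩
  let S : Sylow 5 G := default
  have hC := Cfsg.Agent.S0904.result (G := G) 2 3 5 5 2 Nat.prime_two Nat.prime_three (by norm_num) (by norm_num) (by norm_num)
    (by rw [hG]; norm_num) S
  have hS := card_sylow (p := 5) (n := 1) (m := 288) (G := G) (by rw [hG]; norm_num) (by norm_num) S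
  rw [pow_one] at hS
  have h1 := norm_dvd (by norm_num) hS hC
  have h2 := card_normalizer_mul S
  rw [hG] at h2
  have h3 : Nat.card (Sylow 5 G) ≡ 1 [MOD 5] := card_sylow_modEq_one 5 G
  have h5 : 5 ∣ Nat.card (normalizer ((S : Subgroup G) : Set G)) :=
    (dvd_of_eq hS.symm).trans (Subgroup.card_dvd_of_le Subgroup.le_normalizer)
  have h6 : Nat.card (normalizer ((S : Subgroup G) : Set G)) ∈ Nat.divisors 20 := Nat.mem_divisors.2 ⟨h1, by norm_num⟩
  rw [show Nat.divisors 20 = {1, 2, 4, 5, 10, 20} from by decide +kernel] at h6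
  simp only [Finset.mem_insert, Finset.mem_singleton] at h6
  unfold Nat.ModEq at h3
  rcases h6 with h | h | h | h | h | h <;> rw [h] at h2 h5 <;> omega

theorem s1017 [IsSimpleGroup G] : Nat.card G ≠ 2016 := by
  intro hG
  have hnc : ¬ IsMulCommutative G := notComm (by rw [hG]; norm_num)
  haveI : Fact (Nat.Prime 7) := ⟨by norm_num⟩
  let S : Sylow 7 G := default
  have hC := Cfsg.Agent.S0904.result (G := G) 2 3 7 5 2 Nat.prime_two Nat.prime_three (by norm_num) (by norm_num) (by norm_num)
    (by rw [hG]; norm_num) S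
  have hS := card_sylow (p := 7) (n := 1) (m := 288) (G := G) (by rw [hG]; norm_num) (by norm_num) S
  rw [pow_one] at hS
  have h1 := norm_dvd (by norm_num) hS hC
  have h2 := card_normalizer_mul S
  rw [hG] at h2
  have h3 : Nat.card (Sylow 7 G) ≡ 1 [MOD 7] := card_sylow_modEq_one 7 G
  have h5 : 7 ∣ Nat.card (normalizer ((S : Subgroup G) : Set G)) :=
    (dvd_of_eq hS.symm).trans (Subgroup.card_dvd_of_le Subgroup.le_normalizer)
  have h6 : Nat.card (normalizer ((S : Subgroup G) : Set G)) ∈ Nat.divisors 42 := Nat.mem_divisors.2 ⟨h1, by norm_num⟩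
  rw [show Nat.divisors 42 = {1, 2, 3, 6, 7, 14, 21, 42} from by decide +kernel] at h6
  simp only [Finset.mem_insert, Finset.mem_singleton] at h6
  unfold Nat.ModEq at h3
  have h7 : Nat.card (normalizer ((S : Subgroup G) : Set G)) = 7 := by
    rcases h6 with h | h | h | h | h | h | h | h <;> rw [h] at h2 h5 ⊢ <;> omega
  exact burnside hnc (by rw [hG]; norm_num) S (cent_of_coprime' _ (by norm_num) hS (by rw [h7]; norm_num))

end CfsgLib.OrdH12
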