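import Cfsg.Agent.LibE2H12
import Cfsg.Agent.LibOrdH12c

/-! Orders of simple groups via the three-term relation (helper12) -/

set_option autoImplicit false
set_option linter.all false

namespace CfsgLib.E2H12

open Subgroup Cfsg CfsgLib.SmallSyl CfsgLib.OrdH12

universe u

variable {G : Type u} [Group G] [Finite G]

theorem exists_OD {r : ℕ} [hr : Fact r.Prime] (hr2 : r ≠ 2) (S : Subgroup G) (hS : Nat.card S = r)
    (hC : centralizer (S : Set G) = S) (hN : Nat.card (normalizer (S : Set G)) = 2 * r) : ∃ s, OD S s := by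
  haveI : Fact (Nat.Prime 2) := ⟨Nat.prime_two⟩
  have hcyc : IsCyclic S := isCyclic_of_prime_card hS
  have hcomm : ∀ x ∈ S, ∀ y ∈ S, x * y = y * x := by
    intro x hx y hy
    letI := IsCyclic.commGroup (α := S)
    exact congrArg Subtype.val (mul_comm (⟨x, hx⟩ : S) ⟨y, hy⟩)
  have hodd : Odd (Nat.card S) := by rw [hS]; exact hr.out.odd_of_ne_two hr2
  have huniq : ∀ x ∈ S, x * x = 1 → x = 1 := by
    intro x hx hxx
    by_contra hx1
    have h1 : orderOf x = 2 := orderOf_eq_prime (by rw [pow_two]; exact hxx) hx1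
    have h2 : orderOf x ∣ Nat.card S := by
      rw [← Subgroup.orderOf_mk x hx]
      exact orderOf_dvd_natCard _
    rw [h1] at h2
    exact (Nat.not_even_iff_odd.2 hodd) (even_iff_two_dvd.2 h2)
  obtain ⟨s, hs⟩ := exists_prime_orderOf_dvd_card' 2 (show 2 ∣ Nat.card (normalizer (S : Set G)) from ⟨r, hN⟩)
  have hs' : orderOf (s : G) = 2 := by rw [Subgroup.orderOf_coe]; exact hs
  have hs2 : (s : G) * s = 1 := by
    have := pow_orderOf_eq_one (s : G)
    rwa [hs', pow_two] at this
  have hs1 : (s : G) ≠ 1 := by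
    intro h
    rw [h, orderOf_one] at hs'
    omega
  have hsS : (s : G) ∉ S := fun h => hs1 (huniq _ h hs2)
  have hnorm : ∀ g ∈ normalizer (S : Set G), ∀ x ∈ S, g * x * g⁻¹ ∈ S := fun g hg x hx => (mem_normalizer_iff.1 hg x).1 hx
  -- prime order: only trivial subgroups
  have hprime : ∀ D : Subgroup G, D ≤ S → D ≠ ⊥ → D = S := by
    intro D hD hD1
    have h1 : Nat.card D ∣ r := by rw [← hS]; exact Subgroup.card_dvd_of_le hD
    rcases (Nat.dvd_prime hr.out).1 h1 with h2 | h2
    · exact absurd (Subgroup.eq_bot_of_card_eq _ h2) hD1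
    · exact Subgroup.eq_of_le_of_card_ge hD (by rw [h2, hS])
  have hinv : ∀ x ∈ S, (s : G) * x * (s : G)⁻¹ = x⁻¹ := by
    intro x hx
    have h1 : (s : G) * x * (s : G)⁻¹ ∈ S := hnorm s s.2 x hx
    have hsi : (s : G)⁻¹ = s := inv_eq_of_mul_eq_one_left hs2
    -- the product is centralised by `s`
    have h2 : x * ((s : G) * x * (s : G)⁻¹) ∈ S ⊓ centralizer ({(s : G)} : Set G) := by
      refine mem_inf.2 ⟨S.mul_mem hx h1, ?_⟩
      rw [mem_centralizer_singleton_iff]
      have h3 : (s : G) * (x * ((s : G) * x * (s : G)⁻¹)) * (s : G)⁻¹ = x * ((s : G) * x * (s : G)⁻¹) := by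
        calc (s : G) * (x * ((s : G) * x * (s : G)⁻¹)) * (s : G)⁻¹
            = ((s : G) * x * (s : G)⁻¹) * ((s : G) * (s : G) * x * ((s : G) * (s : G))⁻¹) := by group
          _ = ((s : G) * x * (s : G)⁻¹) * x := by rw [hs2]; group
          _ = x * ((s : G) * x * (s : G)⁻¹) := hcomm _ h1 _ hx
      rw [mul_inv_eq_iff_eq_mul] at h3
      exact h3.symm
    have h3 : S ⊓ centralizer ({(s : G)} : Set G) = ⊥ := by
      by_contra hne
      have h4 := hprime _ inf_le_left hne
      have h6 : (s : G) ∈ centralizer (S : Set G) := by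
        rw [mem_centralizer_iff]
        intro y hy
        have h5 : y ∈ S ⊓ centralizer ({(s : G)} : Set G) := by rw [h4]; exact hy
        exact mem_centralizer_singleton_iff.1 h5.2
      have h7 : (s : G) ∈ (S : Subgroup G) := hC.le h6
      exact hsS h7
    rw [h3, mem_bot] at h2
    exact (eq_inv_of_mul_eq_one_right h2)
  have hti : ∀ g x, x ∈ S → x ≠ 1 → g * x * g⁻¹ ∈ S → g ∈ normalizer (S : Set G) := by
    intro g x hx hx1 hgx
    have h1 : zpowers x = S := hprime _ (by rw [zpowers_le]; exact hx) (by rwa [Ne, zpowers_eq_bot])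
    have h2 : zpowers (g * x * g⁻¹) = S := hprime _ (by rw [zpowers_le]; exact hgx) (by
      rw [Ne, zpowers_eq_bot, mul_inv_eq_one]
      intro h
      exact hx1 (mul_eq_left.1 h))
    rw [mem_normalizer_iff]
    intro y
    constructor
    · intro hy
      have hy' : y ∈ zpowers x := by rw [h1]; exact hy
      obtain ⟨k, rfl⟩ := hy'
      have : g * x ^ k * g⁻¹ = (g * x * g⁻¹) ^ k := by rw [conj_zpow]
      show g * x ^ k * g⁻¹ ∈ S
      rw [this]
      exact S.zpow_mem hgx k
    · intro hy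
      have hy' : g * y * g⁻¹ ∈ zpowers (g * x * g⁻¹) := by rw [h2]; exact hy
      obtain ⟨k, hk⟩ := hy'
      have hk' : g * x ^ k * g⁻¹ = g * y * g⁻¹ := by rw [← hk]; exact conj_zpow.symm
      have : x ^ k = y := by
        have := mul_right_cancel hk'
        exact mul_left_cancel this
      rw [← this]
      exact S.zpow_mem hx k
  have hidx : (S.subgroupOf (normalizer (S : Set G))).index = 2 := by
    have h1 := (S.subgroupOf (normalizer (S : Set G))).card_mul_index
    rw [Nat.card_congr (Subgroup.subgroupOfEquivOfLe (le_normalizer (H := S))).toEquiv, hS, hN] at h1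
    have h2 := hr.out.pos
    nlinarith
  refine ⟨s, hcomm, hs2, hs1, hsS, hinv, huniq, ?_, ?_⟩
  · intro g x hx hx1 hgx
    have hg := hti g x hx hx1 hgx
    by_cases hgS : g ∈ S
    · exact Or.inl hgS
    · right
      have h1 := Subgroup.mul_mem_iff_of_index_two hidx (a := s) (b := ⟨g, hg⟩)
      rw [mem_subgroupOf, mem_subgroupOf, mem_subgroupOf] at h1
      exact h1.2 ⟨fun h => absurd h hsS, fun h => absurd h hgS⟩
  · have : S ≠ ⊥ := by
      rintro rfl
      rw [Subgroup.card_bot] at hS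
      exact hr.out.one_lt.ne hS
    obtain ⟨x, hx⟩ := Subgroup.ne_bot_iff_exists_ne_one.1 this
    exact ⟨x, x.2, fun h => hx (Subtype.ext h)⟩

/-- summary for simple groups -/
theorem summary [IsSimpleGroup G] (hnc : ¬ IsMulCommutative G) {r : ℕ} [hr : Fact r.Prime] (hr2 : r ≠ 2) (S : Subgroup G) (hS : Nat.card S = r)
    (hC : centralizer (S : Set G) = S) (hN : Nat.card (normalizer (S : Set G)) = 2 * r) :
    ∃ (c m : ℕ) (a : ℤ), 0 < c ∧ 2 ≤ m ∧ m ∣ Nat.card G ∧ (m + 1) ∣ Nat.card G ∧ (m + 1) ^ 2 < Nat.card G ∧ -(m : ℤ) < a ∧ a ≤ m ∧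
      ((c : ℤ) ^ 2 * r * m * (m + 1) = Nat.card G * (m - a) ^ 2) ∧
      (∀ k, 2 ^ k ∣ Nat.card G → 2 ^ k ∣ c) := by
  classical
  haveI : Fintype G := Fintype.ofFinite G
  haveI : Fact (Nat.Prime 2) := ⟨Nat.prime_two⟩
  obtain ⟨s, h⟩ := exists_OD hr2 S hS hC hN
  have hna : ∃ a b : G, a * b ≠ b * a := by
    by_contra hcon
    push Not at hcon
    exact hnc ⟨⟨hcon⟩⟩
  obtain ⟨χ, m, a, hm2, h1, h2, h3, hχm, hχa, ha, hχ1, hform, hall⟩ := main hna h
  refine ⟨Nat.card (centralizer ({s} : Set G)), m, a, Nat.card_pos, hm2, h1, h2, h3, ?_, (abs_le.1 ha).2, by rw [← hS]; exact hform, ?_⟩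
  · rcases (abs_le.1 ha).1.lt_or_eq with h4 | h4
    · exact h4
    · exfalso
      have hneg : (χ : G → ℂ) s = -(m : ℂ) := by rw [hχa, ← h4]; push_cast; ring
      have hm0 : (χ : G → ℂ) 1 ≠ 0 := by rw [hχm]; exact_mod_cast (by omega : m ≠ 0)
      have hsc : ∀ x y : G, (χ : G → ℂ) ((x * s * x⁻¹) * y) = - (χ : G → ℂ) y := by
        intro x y
        have h5 : (χ : G → ℂ) (x * s * x⁻¹) = -(m : ℂ) := by
          rw [← hneg]; exact CfsgLib.CharBasic.irr_classFun χ.2 _ _
        rw [CfsgLib.CharBasic.char_mul_of_scalar (CfsgLib.CharBasic.irr_isCharacter χ.2) hm0 (by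
          rw [h5, hχm, norm_neg, Complex.norm_natCast, Complex.natCast_re]), h5, hχm, neg_div, div_self (by rw [← hχm]; exact hm0)]
        ring
      have hker : ∀ g : G, (χ : G → ℂ) g = (χ : G → ℂ) 1 → g = 1 := by
        intro g hg
        obtain ⟨L, hL, hL2⟩ := CfsgLib.CharBasic.exists_kernel (CfsgLib.CharBasic.irr_isCharacter χ.2)
        rcases hL.eq_bot_or_eq_top with h5 | h5
        · have := (hL2 g).2 hg
          rw [h5, mem_bot] at this
          exact this
        · exfalso
          have h6 := (hL2 s).1 (by rw [h5]; trivial)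
          rw [hneg, hχm] at h6
          have h7 : (m : ℂ) = 0 := by linear_combination (-1/2 : ℂ) * h6
          have : m = 0 := by exact_mod_cast h7
          omega
      have hcen : s ∈ center G := by
        rw [mem_center_iff]
        intro x
        have h5 : (x * s * x⁻¹) * s = 1 := by
          apply hker
          rw [hsc x s, hneg, hχm]; ring
        have h6 : x * s * x⁻¹ = s⁻¹ := eq_inv_of_mul_eq_one_left h5
        rw [h.si, mul_inv_eq_iff_eq_mul] at h6
        exact h6
      rcases (inferInstance : (center G).Normal).eq_bot_or_eq_top with h5 | h5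
      · rw [h5, mem_bot] at hcen
        exact h.s1 hcen
      · apply hnc
        refine ⟨⟨fun x y => ?_⟩⟩
        have : y ∈ center G := by rw [h5]; trivial
        exact mem_center_iff.1 this x
  · intro k hk
    by_cases hk0 : k = 0
    · rw [hk0, pow_zero]; exact one_dvd _
    let P : Sylow 2 G := default
    have hcard : Nat.card P = 2 ^ (Nat.card G).factorization 2 := P.card_eq_multiplicity
    have hkle : k ≤ (Nat.card G).factorization 2 := (Nat.prime_two.pow_dvd_iff_le_factorization Nat.card_pos.ne').1 hk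
    haveI : Nontrivial P := by
      rw [← Finite.one_lt_card_iff_nontrivial, hcard]
      exact Nat.one_lt_two_pow (by omega)
    have hZ : Nontrivial (center P) := P.2.center_nontrivial
    obtain ⟨z, hz⟩ := exists_prime_orderOf_dvd_card' (G := center P) 2 (by
      have h5 : IsPGroup 2 (center P) := P.2.to_subgroup _
      obtain ⟨n, hn⟩ := IsPGroup.iff_card.1 h5
      rw [hn]
      apply dvd_pow_self
      rintro rfl
      rw [pow_zero] at hn
      exact (Finite.one_lt_card_iff_nontrivial.2 hZ).ne' hn)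
    have hz' : orderOf ((z : P) : G) = 2 := by rw [Subgroup.orderOf_coe, Subgroup.orderOf_coe]; exact hz
    have hz2 : ((z : P) : G) * ((z : P) : G) = 1 := by
      have := pow_orderOf_eq_one ((z : P) : G)
      rwa [hz', pow_two] at this
    have hz1 : ((z : P) : G) ≠ 1 := by
      intro h
      rw [h, orderOf_one] at hz'
      omega
    have hcz := hall _ hz2 hz1
    have hle : (P : Subgroup G) ≤ centralizer ({((z : P) : G)} : Set G) := by
      intro x hx
      rw [mem_centralizer_singleton_iff]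
      exact congrArg Subtype.val (mem_center_iff.1 z.2 ⟨x, hx⟩)
    have h6 : Nat.card (centralizer ({((z : P) : G)} : Set G)) = Nat.card (centralizer ({s} : Set G)) := by
      have e1 := CfsgLib.CharBasic.card_class_mul_card_centralizer ((z : P) : G)
      have e2 := CfsgLib.CharBasic.card_class_mul_card_centralizer s
      have e3 : Nat.card {x : G // IsConj ((z : P) : G) x} = Nat.card {x : G // IsConj s x} :=
        Nat.card_congr (Equiv.subtypeEquivRight fun x => ⟨fun h => hcz.symm.trans h, fun h => hcz.trans h⟩)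
      rw [e3] at e1
      have e4 := e1.trans e2.symm
      refine Nat.eq_of_mul_eq_mul_left ?_ e4
      by_contra hcon
      have h7 : Nat.card {x : G // IsConj s x} = 0 := by omega
      rw [h7, zero_mul] at e2
      exact Nat.card_pos.ne e2
    rw [← h6]
    exact (pow_dvd_pow 2 hkle).trans ((dvd_of_eq hcard.symm).trans (Subgroup.card_dvd_of_le hle))

/-- the inequality -/
theorem ineq [IsSimpleGroup G] (hnc : ¬ IsMulCommutative G) {r : ℕ} [hr : Fact r.Prime] (hr2 : r ≠ 2) (S : Subgroup G) (hS : Nat.card S = r)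
    (hC : centralizer (S : Set G) = S) (hN : Nat.card (normalizer (S : Set G)) = 2 * r) {k : ℕ} (hk : 2 ^ k ∣ Nat.card G) :
    ∃ m : ℕ, 2 ≤ m ∧ m ∣ Nat.card G ∧ (m + 1) ∣ Nat.card G ∧ (m + 1) ^ 2 < Nat.card G ∧
      2 ^ k * 2 ^ k * r * m * (m + 1) ≤ Nat.card G * (2 * m - 1) ^ 2 := by
  obtain ⟨c, m, a, hc0, hm2, h1, h2, h3, ha1, ha2, hform, hall⟩ := summary hnc hr2 S hS hC hN
  refine ⟨m, hm2, h1, h2, h3, ?_⟩
  have h4 : 2 ^ k ≤ c := Nat.le_of_dvd hc0 (hall k hk)
  have h5 : (m : ℤ) - a ≤ 2 * m - 1 := by linarith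
  have h6 : (0 : ℤ) ≤ (m : ℤ) - a := by linarith
  have h7 : ((m : ℤ) - a) ^ 2 ≤ (2 * m - 1) ^ 2 := by
    apply pow_le_pow_left₀ h6 h5
  have h8 : 2 ^ k * 2 ^ k * r * m * (m + 1) ≤ c ^ 2 * r * m * (m + 1) := by
    rw [pow_two]
    gcongr
  have h9 : ((c ^ 2 * r * m * (m + 1) : ℕ) : ℤ) ≤ ((Nat.card G * (2 * m - 1) ^ 2 : ℕ) : ℤ) := by
    push_cast
    rw [hform, Nat.cast_sub (by omega)]
    push_cast
    exact mul_le_mul_of_nonneg_left h7 (by positivity)
  exact h8.trans (by exact_mod_cast h9)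

theorem contra [IsSimpleGroup G] (hnc : ¬ IsMulCommutative G) {r : ℕ} [hr : Fact r.Prime] (hr2 : r ≠ 2) (S : Subgroup G) (hS : Nat.card S = r)
    (hC : centralizer (S : Set G) = S) (hN : Nat.card (normalizer (S : Set G)) = 2 * r) {k : ℕ} (hk : 2 ^ k ∣ Nat.card G)
    (hle : 4 * Nat.card G ≤ 2 ^ k * 2 ^ k * r) : False := by
  obtain ⟨m, hm2, -, -, -, h⟩ := ineq hnc hr2 S hS hC hN hk
  have h1 : 4 * Nat.card G * m * (m + 1) ≤ 2 ^ k * 2 ^ k * r * m * (m + 1) := by gcongr
  have h2 : Nat.card G * (2 * m - 1) ^ 2 < 4 * Nat.card G * m * (m + 1) := by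
    have h3 : (2 * m - 1) ^ 2 < 4 * m * (m + 1) := by
      obtain ⟨n, rfl⟩ : ∃ n, m = n + 1 := ⟨m - 1, by omega⟩
      have : 2 * (n + 1) - 1 = 2 * n + 1 := by omega
      rw [this]
      nlinarith
    calc Nat.card G * (2 * m - 1) ^ 2 < Nat.card G * (4 * m * (m + 1)) := Nat.mul_lt_mul_of_pos_left h3 Nat.card_pos
      _ = 4 * Nat.card G * m * (m + 1) := by ring
  omega

theorem s0974 [IsSimpleGroup G] : Nat.card G ≠ 3648 := by
  intro hG
  have hnc : ¬ IsMulCommutative G := notComm (by rw [hG]; norm_num)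
  haveI : Fact (Nat.Prime 19) := ⟨by norm_num⟩
  let S : Sylow 19 G := default
  have hC := Cfsg.Agent.S0904.result (G := G) 2 3 19 6 1 Nat.prime_two Nat.prime_three (by norm_num) (by norm_num) (by norm_num)
    (by rw [hG]; norm_num) S
  have hS := card_sylow (p := 19) (n := 1) (m := 192) (G := G) (by rw [hG]; norm_num) (by norm_num) S
  rw [pow_one] at hS
  have h1 := norm_dvd (by norm_num) hS hC
  have h2 := card_normalizer_mul S
  rw [hG] at h2
  have h3 : Nat.card (Sylow 19 G) ≡ 1 [MOD 19] := card_sylow_modEq_one 19 G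
  have h5 : 19 ∣ Nat.card (normalizer ((S : Subgroup G) : Set G)) :=
    (dvd_of_eq hS.symm).trans (Subgroup.card_dvd_of_le Subgroup.le_normalizer)
  have h6 : Nat.card (normalizer ((S : Subgroup G) : Set G)) ∈ Nat.divisors 342 := Nat.mem_divisors.2 ⟨h1, by norm_num⟩
  rw [show Nat.divisors 342 = {1, 2, 3, 6, 9, 18, 19, 38, 57, 114, 171, 342} from by decide +kernel] at h6
  simp only [Finset.mem_insert, Finset.mem_singleton] at h6
  unfold Nat.ModEq at h3
  have h7 : Nat.card (normalizer ((S : Subgroup G) : Set G)) = 2 * 19 := by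
    rcases h6 with h | h | h | h | h | h | h | h | h | h | h | h <;> rw [h] at h2 h5 ⊢ <;> omega
  exact contra hnc (by norm_num) (S : Subgroup G) hS hC h7 (k := 6) (by rw [hG]; norm_num) (by rw [hG]; norm_num)

theorem s0976 [IsSimpleGroup G] : Nat.card G ≠ 4032 := by
  intro hG
  have hnc : ¬ IsMulCommutative G := notComm (by rw [hG]; norm_num)
  haveI : Fact (Nat.Prime 7) := ⟨by norm_num⟩
  let S : Sylow 7 G := default
  have hC := Cfsg.Agent.S0904.result (G := G) 2 3 7 6 2 Nat.prime_two Nat.prime_three (by norm_num) (by norm_num) (by norm_num)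
    (by rw [hG]; norm_num) S
  have hS := card_sylow (p := 7) (n := 1) (m := 576) (G := G) (by rw [hG]; norm_num) (by norm_num) S
  rw [pow_one] at hS
  have h1 := norm_dvd (by norm_num) hS hC
  have h2 := card_normalizer_mul S
  rw [hG] at h2
  have h3 : Nat.card (Sylow 7 G) ≡ 1 [MOD 7] := card_sylow_modEq_one 7 G
  have h5 : 7 ∣ Nat.card (normalizer ((S : Subgroup G) : Set G)) :=
    (dvd_of_eq hS.symm).trans (Subgroup.card_dvd_of_le Subgroup.le_normalizer)
  have h6 : Nat.card (normalizer ((S : Subgroup G) : Set G)) ∈ Nat.divisors 42 := Nat.mem_divisors.2 ⟨h1, by norm_num⟩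
  rw [show Nat.divisors 42 = {1, 2, 3, 6, 7, 14, 21, 42} from by decide +kernel] at h6
  simp only [Finset.mem_insert, Finset.mem_singleton] at h6
  unfold Nat.ModEq at h3
  have h7 : Nat.card (normalizer ((S : Subgroup G) : Set G)) = 2 * 7 := by
    rcases h6 with h | h | h | h | h | h | h | h <;> rw [h] at h2 h5 ⊢ <;> omega
  exact contra hnc (by norm_num) (S : Subgroup G) hS hC h7 (k := 6) (by rw [hG]; norm_num) (by rw [hG]; norm_num)

theorem s0980 [IsSimpleGroup G] : Nat.card G ≠ 5760 := by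
  intro hG
  have hnc : ¬ IsMulCommutative G := notComm (by rw [hG]; norm_num)
  haveI : Fact (Nat.Prime 5) := ⟨by norm_num⟩
  let S : Sylow 5 G := default
  have hC := Cfsg.Agent.S0904.result (G := G) 2 3 5 7 2 Nat.prime_two Nat.prime_three (by norm_num) (by norm_num) (by norm_num)
    (by rw [hG]; norm_num) S
  have hS := card_sylow (p := 5) (n := 1) (m := 1152) (G := G) (by rw [hG]; norm_num) (by norm_num) S
  rw [pow_one] at hS
  have h1 := norm_dvd (by norm_num) hS hC
  have h2 := card_normalizer_mul S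
  rw [hG] at h2
  have h3 : Nat.card (Sylow 5 G) ≡ 1 [MOD 5] := card_sylow_modEq_one 5 G
  have h5 : 5 ∣ Nat.card (normalizer ((S : Subgroup G) : Set G)) :=
    (dvd_of_eq hS.symm).trans (Subgroup.card_dvd_of_le Subgroup.le_normalizer)
  have h6 : Nat.card (normalizer ((S : Subgroup G) : Set G)) ∈ Nat.divisors 20 := Nat.mem_divisors.2 ⟨h1, by norm_num⟩
  rw [show Nat.divisors 20 = {1, 2, 4, 5, 10, 20} from by decide +kernel] at h6
  simp only [Finset.mem_insert, Finset.mem_singleton] at h6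
  unfold Nat.ModEq at h3
  have h7 : Nat.card (normalizer ((S : Subgroup G) : Set G)) = 2 * 5 := by
    rcases h6 with h | h | h | h | h | h <;> rw [h] at h2 h5 ⊢ <;> omega
  exact contra hnc (by norm_num) (S : Subgroup G) hS hC h7 (k := 7) (by rw [hG]; norm_num) (by rw [hG]; norm_num)

theorem s0975 [IsSimpleGroup G] : Nat.card G ≠ 3744 := by
  intro hG
  have hnc : ¬ IsMulCommutative G := notComm (by rw [hG]; norm_num)
  haveI : Fact (Nat.Prime 13) := ⟨by norm_num⟩
  let S : Sylow 13 G := default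
  have hC := Cfsg.Agent.S0904.result (G := G) 2 3 13 5 2 Nat.prime_two Nat.prime_three (by norm_num) (by norm_num) (by norm_num)
    (by rw [hG]; norm_num) S
  have hS := card_sylow (p := 13) (n := 1) (m := 288) (G := G) (by rw [hG]; norm_num) (by norm_num) S
  rw [pow_one] at hS
  have h1 := norm_dvd (by norm_num) hS hC
  have h2 := card_normalizer_mul S
  rw [hG] at h2
  have h3 : Nat.card (Sylow 13 G) ≡ 1 [MOD 13] := card_sylow_modEq_one 13 G
  have h5 : 13 ∣ Nat.card (normalizer ((S : Subgroup G) : Set G)) :=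
    (dvd_of_eq hS.symm).trans (Subgroup.card_dvd_of_le Subgroup.le_normalizer)
  have h6 : Nat.card (normalizer ((S : Subgroup G) : Set G)) ∈ Nat.divisors 156 := Nat.mem_divisors.2 ⟨h1, by norm_num⟩
  rw [show Nat.divisors 156 = {1, 2, 3, 4, 6, 12, 13, 26, 39, 52, 78, 156} from by decide +kernel] at h6
  simp only [Finset.mem_insert, Finset.mem_singleton] at h6
  unfold Nat.ModEq at h3
  have h7 : Nat.card (normalizer ((S : Subgroup G) : Set G)) = 2 * 13 := by
    rcases h6 with h | h | h | h | h | h | h | h | h | h | h | h <;> rw [h] at h2 h5 ⊢ <;> omega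
  obtain ⟨m, hm2, hm1, hm3, hm4, hle⟩ := ineq hnc (by norm_num) (S : Subgroup G) hS hC h7 (k := 5) (by rw [hG]; norm_num)
  rw [hG] at hm1 hm3 hm4 hle
  have hm5 : m ≤ 60 := by
    by_contra hcon
    have : 62 ≤ m + 1 := by omega
    have := Nat.pow_le_pow_left this 2
    omega
  interval_cases m <;> revert hm1 hm3 hle <;> decide

end CfsgLib.E2H12
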