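import Mathlib
import Cfsg.Agent.EqBase
import Cfsg.Agent.LibLE11Syl
import Cfsg.Agent.LibCores
import Cfsg.Prelude.Def_SubgroupEmbedding
import Cfsg.Prelude.Def_Solvable

/-! Extremely closed abelian `p`-subgroups: group theory (seat helper11). -/

set_option autoImplicit false
set_option linter.all false

namespace CfsgLib.EC11

open Subgroup Cfsg CfsgLib.LE11Syl
open scoped Pointwise

universe u
variable {G : Type u} [Group G]

/-- retraction of `K` onto `H` with `p'`-kernel -/
structure Ret (p : ℕ) (K H : Subgroup G) (f : K →* G) : Prop where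
  le : H ≤ K
  mem : ∀ k, f k ∈ H
  fix : ∀ h (hh : h ∈ H), f ⟨h, le hh⟩ = h
  ker : ∀ k : K, f k = 1 → ¬ p ∣ orderOf (k : G)

/-- extremely closed abelian `p`-subgroup -/
structure EC (p : ℕ) (H : Subgroup G) : Prop where
  pg : IsPGroup p H
  ab : ∀ a ∈ H, ∀ b ∈ H, a * b = b * a
  ec : IsExtremelyClosed H

variable [Finite G] {p : ℕ} [hp : Fact p.Prime]

/-- a complement gives a retraction -/
theorem exists_ret_of_compl {K H : Subgroup G} (hle : H ≤ K) {N : Subgroup K} [N.Normal]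
    (hc : IsComplement' N (H.subgroupOf K)) (hN : ¬ p ∣ Nat.card N) :
    ∃ f : K →* G, Ret p K H f := by
  refine ⟨K.subtype.comp ((H.subgroupOf K).subtype.comp
    (hc.symm.QuotientMulEquiv.toMonoidHom.comp (QuotientGroup.mk' N))), hle, ?_, ?_, ?_⟩
  · intro k
    exact ((hc.symm.QuotientMulEquiv (QuotientGroup.mk' N k)) : H.subgroupOf K).2
  · intro h hh
    have h1 : hc.symm.QuotientMulEquiv (QuotientGroup.mk' N ⟨h, hle hh⟩) = (⟨⟨h, hle hh⟩, hh⟩ : H.subgroupOf K) := by
      rw [← MulEquiv.eq_symm_apply]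
      rfl
    change (((hc.symm.QuotientMulEquiv (QuotientGroup.mk' N ⟨h, hle hh⟩)) : K) : G) = h
    rw [h1]
  · intro k hk
    have h1 : (((hc.symm.QuotientMulEquiv (QuotientGroup.mk' N k)) : K) : G) = 1 := hk
    have h2 : hc.symm.QuotientMulEquiv (QuotientGroup.mk' N k) = 1 := by
      apply Subtype.ext
      apply Subtype.ext
      exact h1
    rw [MulEquiv.map_eq_one_iff] at h2
    have h3 : k ∈ N := (QuotientGroup.eq_one_iff k).1 h2
    rw [Subgroup.orderOf_coe]
    intro hd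
    exact hN (hd.trans (Subgroup.orderOf_dvd_natCard _ h3))

/-- Burnside: a self-normalizing abelian `p`-subgroup -/
theorem exists_ret_of_norm {K H : Subgroup G} (hle : H ≤ K) (hH : IsPGroup p H)
    (hab : ∀ a ∈ H, ∀ b ∈ H, a * b = b * a) (hn : K ⊓ normalizer (H : Set G) ≤ H) :
    ∃ f : K →* G, Ret p K H f := by
  have hs : IsSyl p H H := ⟨le_rfl, hH, by rw [Subgroup.relIndex_self]; exact hp.out.one_lt.ne' ∘ Nat.dvd_one.1⟩
  have hs2 : IsSyl p H K := hs.of_normalizer_le hle hn
  have h4 : IsPGroup p (H.subgroupOf K) := hH.comap_of_injective K.subtype K.subtype_injective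
  obtain ⟨P, hP⟩ : ∃ P : Sylow p K, (P : Subgroup K) = H.subgroupOf K := ⟨h4.toSylow hs2.2.2, rfl⟩
  have hPc : normalizer ((P : Subgroup K) : Set K) ≤ centralizer ((P : Subgroup K) : Set K) := by
    rw [hP]
    intro k hk
    rw [mem_centralizer_iff]
    intro a ha
    have ha' : (a : G) ∈ H := ha
    have hk' : (k : G) ∈ H := by
      apply hn
      refine ⟨k.2, ?_⟩
      change (k : G) ∈ normalizer (H : Set G)
      rw [mem_normalizer_iff]
      intro x
      constructor
      · intro hx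
        have := (mem_normalizer_iff.1 hk ⟨x, hle hx⟩).1 hx
        exact this
      · intro hx
        have hxK : x ∈ K := by
          have h1 : x = (k : G)⁻¹ * ((k : G) * x * (k : G)⁻¹) * (k : G) := by group
          rw [h1]
          exact K.mul_mem (K.mul_mem (K.inv_mem k.2) (hle hx)) k.2
        have := (mem_normalizer_iff.1 hk ⟨x, hxK⟩).2 hx
        exact this
    apply Subtype.ext
    exact hab a ha' k hk'
  have hcomp := MonoidHom.ker_transferSylow_isComplement' P hPc
  have hnd := MonoidHom.not_dvd_card_ker_transferSylow P hPc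
  obtain ⟨N, hN⟩ : ∃ N, N = (MonoidHom.transferSylow P hPc).ker := ⟨_, rfl⟩
  haveI : N.Normal := hN ▸ inferInstance
  rw [← hN] at hcomp hnd
  rw [hP] at hcomp
  exact exists_ret_of_compl hle hcomp hnd

theorem exists_ret_of_core {X H : Subgroup G} (hle : H ≤ X) (hH : IsPGroup p H)
    (ht : H.subgroupOf X ⊔ pPrimeCore p X = ⊤) : ∃ f : X →* G, Ret p X H f := by
  have hcop : (Nat.card (pPrimeCore p X)).Coprime p := CfsgLib.Cores.pPrimeCore_coprime p
  have h4 : IsPGroup p (H.subgroupOf X) := hH.comap_of_injective X.subtype X.subtype_injective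
  have hd : Disjoint (pPrimeCore p X) (H.subgroupOf X) := by
    apply disjoint_of_coprime_natCard
    obtain ⟨n, hn⟩ := h4.exists_card_eq
    rw [hn]
    exact hcop.pow_right n
  have hc : IsComplement' (pPrimeCore p X) (H.subgroupOf X) := by
    apply isComplement'_of_disjoint_and_mul_eq_univ hd
    rw [← Subgroup.normal_mul, sup_comm, ht]
    rfl
  exact exists_ret_of_compl hle hc (fun hd => hp.out.one_lt.ne' (Nat.eq_one_of_dvd_coprimes hcop hd dvd_rfl))

/-- the core contains the `p'`-elements of a `p`-nilpotent normal subgroup -/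
theorem mem_core_of_mem_sup {X : Type*} [Group X] [Finite X] {H : Subgroup X} (hH : IsPGroup p H)
    {r : X} (hr : r ∈ H ⊔ pPrimeCore p X) (hrp : ¬ p ∣ orderOf r) : r ∈ pPrimeCore p X := by
  have h1 : QuotientGroup.mk' (pPrimeCore p X) r ∈ H.map (QuotientGroup.mk' (pPrimeCore p X)) := by
    have h2 : QuotientGroup.mk' (pPrimeCore p X) r ∈ (H ⊔ pPrimeCore p X).map (QuotientGroup.mk' (pPrimeCore p X)) :=
      ⟨r, hr, rfl⟩
    rw [Subgroup.map_sup] at h2
    have h3 : (pPrimeCore p X).map (QuotientGroup.mk' (pPrimeCore p X)) = ⊥ := by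
      rw [Subgroup.map_eq_bot_iff, QuotientGroup.ker_mk']
    rwa [h3, sup_bot_eq] at h2
  have h2 : IsPGroup p (H.map (QuotientGroup.mk' (pPrimeCore p X))) := hH.map _
  obtain ⟨k, hk⟩ := IsPGroup.iff_orderOf.1 h2 ⟨_, h1⟩
  rw [← Subgroup.orderOf_coe] at hk
  change orderOf (QuotientGroup.mk' (pPrimeCore p X) r) = p ^ k at hk
  have h3 : orderOf (QuotientGroup.mk' (pPrimeCore p X) r) ∣ orderOf r := orderOf_map_dvd _ r
  have h4 : k = 0 := by
    by_contra hk0
    apply hrp
    rw [hk] at h3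
    exact (dvd_pow_self p hk0).trans h3
  rw [h4, pow_zero, orderOf_eq_one_iff] at hk
  exact (QuotientGroup.eq_one_iff r).1 hk

variable {H K : Subgroup G} {f : K →* G}

theorem Ret.map_eq (hf : Ret p K H f) {h : G} (hh : h ∈ H) (hK : h ∈ K) : f ⟨h, hK⟩ = h := hf.fix h hh

theorem Ret.injOn_pgroup (hf : Ret p K H f) {P : Subgroup G} (hPK : P ≤ K) (hP : IsPGroup p P) :
    Nat.card P ≤ Nat.card H := by
  have : Function.Injective (fun x : P => (⟨f ⟨x, hPK x.2⟩, hf.mem _⟩ : H)) := by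
    intro x y hxy
    have h1 : f ⟨x, hPK x.2⟩ = f ⟨y, hPK y.2⟩ := congrArg Subtype.val hxy
    have h2 : f (⟨x, hPK x.2⟩⁻¹ * ⟨y, hPK y.2⟩) = 1 := by
      rw [map_mul, map_inv, h1, inv_mul_cancel]
    have h3 := hf.ker _ h2
    have h4 : ((⟨x, hPK x.2⟩⁻¹ * ⟨y, hPK y.2⟩ : K) : G) = ((x⁻¹ * y : P) : G) := rfl
    rw [h4, Subgroup.orderOf_coe] at h3
    obtain ⟨k, hk⟩ := IsPGroup.iff_orderOf.1 hP (x⁻¹ * y)
    have h5 : k = 0 := by
      by_contra hk0
      apply h3
      rw [hk]; exact dvd_pow_self p hk0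
    rw [h5, pow_zero, orderOf_eq_one_iff] at hk
    exact (inv_mul_eq_one.1 hk)
  exact Nat.card_le_card_of_injective _ this

theorem Ret.syl (hf : Ret p K H f) (hH : IsPGroup p H) : IsSyl p H K := by
  apply isSyl_of_max hf.le hH
  intro S hS hSp hle
  exact (Subgroup.eq_of_le_of_card_ge hle (hf.injOn_pgroup hS hSp)).ge

/-- `p`-elements -/
theorem Ret.elem (hf : Ret p K H f) (hH : IsPGroup p H) {v : G} (hv : v ∈ K) (hvp : ∃ n, orderOf v = p ^ n) :
    ∃ k : K, f k = 1 ∧ v = k * f ⟨v, hv⟩ * (k : G)⁻¹ := by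
  obtain ⟨n, hn⟩ := hvp
  have h1 : IsPGroup p (zpowers v) := IsPGroup.of_card (n := n) (by rw [Nat.card_zpowers, hn])
  obtain ⟨m, hm, hle⟩ := (hf.syl hH).conj_le ((zpowers_le).2 hv) h1
  have h2 : m * v * m⁻¹ ∈ H := by
    apply hle
    rw [mem_conj_smul]
    have : m⁻¹ * (m * v * m⁻¹) * m = v := by group
    rw [this]; exact mem_zpowers v
  obtain ⟨m', hm'⟩ : ∃ m' : K, m' = ⟨m, hm⟩ := ⟨_, rfl⟩
  have hfm : f m' ∈ H := hf.mem _
  -- k = m⁻¹ * f m
  have h3 : f (m'⁻¹ * ⟨f m', hf.le hfm⟩) = 1 := by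
    rw [map_mul, map_inv, hf.fix _ hfm, inv_mul_cancel]
  refine ⟨m'⁻¹ * ⟨f m', hf.le hfm⟩, h3, ?_⟩
  have h4 : f ⟨m * v * m⁻¹, hf.le h2⟩ = m * v * m⁻¹ := hf.fix _ h2
  have h5 : (⟨m * v * m⁻¹, hf.le h2⟩ : K) = m' * ⟨v, hv⟩ * m'⁻¹ := by
    apply Subtype.ext
    rw [hm']; rfl
  rw [h5, map_mul, map_mul, map_inv] at h4
  have h6 : f ⟨v, hv⟩ = (f m')⁻¹ * (m * v * m⁻¹) * f m' := by
    rw [← h4]; group
  have h7 : ((m'⁻¹ * ⟨f m', hf.le hfm⟩ : K) : G) = m⁻¹ * f m' := by
    have h8 : (m' : G) = m := by rw [hm']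
    change (m' : G)⁻¹ * f m' = m⁻¹ * f m'
    rw [h8]
  rw [h7, h6]
  group

theorem Ret.ppart_ker (hf : Ret p K H f) (hH : IsPGroup p H) {r : G} (hr : r ∈ K) (hrp : ¬ p ∣ orderOf r) :
    f ⟨r, hr⟩ = 1 := by
  obtain ⟨k, hk⟩ := IsPGroup.iff_orderOf.1 hH ⟨f ⟨r, hr⟩, hf.mem _⟩
  rw [← Subgroup.orderOf_coe] at hk
  change orderOf (f ⟨r, hr⟩) = p ^ k at hk
  have h3 : orderOf (f ⟨r, hr⟩) ∣ orderOf r := by
    have := orderOf_map_dvd f ⟨r, hr⟩
    rwa [← Subgroup.orderOf_coe] at this
  have h4 : k = 0 := by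
    by_contra hk0
    apply hrp
    rw [hk] at h3
    exact (dvd_pow_self p hk0).trans h3
  rw [h4, pow_zero, orderOf_eq_one_iff] at hk
  exact hk

/-! ### extremely closed subgroups -/

theorem EC.norm (h : EC p H) (g : G) : (H ⊔ MulAut.conj g • H) ⊓ normalizer (H : Set G) = H := h.ec g

theorem EC.ret (h : EC p H) (g : G) : ∃ f : (H ⊔ MulAut.conj g • H : Subgroup G) →* G, Ret p _ H f :=
  exists_ret_of_norm le_sup_left h.pg h.ab (h.norm g).le

theorem conj_inf_norm {H K : Subgroup G} (g : G) (h : K ⊓ normalizer (H : Set G) = H) :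
    (MulAut.conj g • K) ⊓ normalizer ((MulAut.conj g • H : Subgroup G) : Set G) = MulAut.conj g • H := by
  have h1 : normalizer ((MulAut.conj g • H : Subgroup G) : Set G) = MulAut.conj g • normalizer (H : Set G) := by
    ext x
    rw [mem_conj_smul, ← conj_smul_eq_iff, ← conj_smul_eq_iff]
    constructor
    · intro hx
      rw [map_mul, map_mul, mul_smul, mul_smul, hx, map_inv, inv_smul_smul]
    · intro hx
      rw [map_mul, map_mul, mul_smul, mul_smul, map_inv, inv_smul_eq_iff] at hx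
      exact hx
  rw [h1, ← Subgroup.smul_inf, h]

theorem EC.conj (h : EC p H) (g : G) : EC p (MulAut.conj g • H) := by
  refine ⟨IsPGroup_conj h.pg g, ?_, ?_⟩
  · intro a ha b hb
    rw [mem_conj_smul] at ha hb
    have h1 := h.ab _ ha _ hb
    have h2 : g * (g⁻¹ * a * g * (g⁻¹ * b * g)) * g⁻¹ = g * (g⁻¹ * b * g * (g⁻¹ * a * g)) * g⁻¹ := by rw [h1]
    calc a * b = g * (g⁻¹ * a * g * (g⁻¹ * b * g)) * g⁻¹ := by group
      _ = _ := h2
      _ = b * a := by group
  · intro x
    have h1 : (MulAut.conj g • H ⊔ MulAut.conj x • MulAut.conj g • H : Subgroup G) =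
        MulAut.conj g • (H ⊔ MulAut.conj (g⁻¹ * x * g) • H) := by
      rw [Subgroup.smul_sup, ← mul_smul, ← mul_smul, ← map_mul, ← map_mul]
      congr 3
      group
    change (MulAut.conj g • H ⊔ MulAut.conj x • MulAut.conj g • H : Subgroup G) ⊓ _ = _
    rw [h1]
    exact conj_inf_norm g (h.norm _)

theorem EC.subgroupOf (h : EC p H) {X : Subgroup G} (hX : H ≤ X) : EC p (H.subgroupOf X) := by
  refine ⟨h.pg.comap_of_injective X.subtype X.subtype_injective, ?_, ?_⟩
  · intro a ha b hb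
    exact Subtype.ext (h.ab _ ha _ hb)
  · intro g
    apply le_antisymm
    · rintro x ⟨hx1, hx2⟩
      change (x : G) ∈ H
      rw [← h.norm (g : G)]
      refine ⟨?_, ?_⟩
      · have h1 : (H.subgroupOf X ⊔ (H.subgroupOf X).map (MulAut.conj g).toMonoidHom).map X.subtype ≤
            H ⊔ MulAut.conj (g : G) • H := by
          rw [Subgroup.map_sup]
          apply sup_le_sup
          · rintro _ ⟨y, hy, rfl⟩
            exact hy
          · rintro _ ⟨_, ⟨y, hy, rfl⟩, rfl⟩
            rw [mem_conj_smul]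
            have : (g : G)⁻¹ * X.subtype ((MulAut.conj g).toMonoidHom y) * (g : G) = y := by
              change (g : G)⁻¹ * ((g : G) * y * (g : G)⁻¹) * (g : G) = y
              group
            rw [this]; exact hy
        exact h1 ⟨x, hx1, rfl⟩
      · change (x : G) ∈ normalizer (H : Set G)
        rw [mem_normalizer_iff]
        intro y
        constructor
        · intro hy
          exact (mem_normalizer_iff.1 hx2 ⟨y, hX hy⟩).1 hy
        · intro hy
          have hyX : y ∈ X := by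
            have h1 : y = (x : G)⁻¹ * ((x : G) * y * (x : G)⁻¹) * (x : G) := by group
            rw [h1]
            exact X.mul_mem (X.mul_mem (X.inv_mem x.2) (hX hy)) x.2
          exact (mem_normalizer_iff.1 hx2 ⟨y, hyX⟩).2 hy
    · exact le_inf le_sup_left le_normalizer

theorem EC.pgroup_le_normalizer (h : EC p H) {S : Subgroup G} (hS : IsPGroup p S) (hHS : H ≤ S) :
    S ≤ normalizer (H : Set G) := by
  intro s hs
  obtain ⟨f, hf⟩ := h.ret s
  have h1 : (H ⊔ MulAut.conj s • H : Subgroup G) ≤ S := by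
    apply sup_le hHS
    intro y hy
    rw [mem_conj_smul] at hy
    have : y = s * (s⁻¹ * y * s) * s⁻¹ := by group
    rw [this]
    exact S.mul_mem (S.mul_mem hs (hHS hy)) (S.inv_mem hs)
  have h2 := hf.injOn_pgroup le_rfl (hS.to_le h1)
  have h3 : H = H ⊔ MulAut.conj s • H := Subgroup.eq_of_le_of_card_ge le_sup_left h2
  rw [← conj_smul_eq_iff]
  apply Subgroup.eq_of_le_of_card_ge
  · conv_rhs => rw [h3]
    exact le_sup_right
  · rw [card_conj]

/-- quotients -/
theorem EC.quot (h : EC p H) (N : Subgroup G) [N.Normal] : EC p (H.map (QuotientGroup.mk' N)) := by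
  refine ⟨h.pg.map _, ?_, ?_⟩
  · rintro _ ⟨a, ha, rfl⟩ _ ⟨b, hb, rfl⟩
    rw [← map_mul, ← map_mul, h.ab a ha b hb]
  · intro g
    obtain ⟨g, rfl⟩ := QuotientGroup.mk'_surjective N g
    apply le_antisymm
    · rintro x ⟨hx1, hx2⟩
      have h1 : (H.map (QuotientGroup.mk' N) ⊔ (H.map (QuotientGroup.mk' N)).map (MulAut.conj (QuotientGroup.mk' N g)).toMonoidHom)
          = (H ⊔ MulAut.conj g • H).map (QuotientGroup.mk' N) := by
        rw [Subgroup.map_sup]
        congr 1
        ext y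
        constructor
        · rintro ⟨_, ⟨z, hz, rfl⟩, rfl⟩
          refine ⟨g * z * g⁻¹, ?_, ?_⟩
          · change g * z * g⁻¹ ∈ MulAut.conj g • H
            rw [mem_conj_smul]
            have : g⁻¹ * (g * z * g⁻¹) * g = z := by group
            rw [this]; exact hz
          · rw [map_mul, map_mul, map_inv]; rfl
        · rintro ⟨z, hz, rfl⟩
          have hz' : z ∈ MulAut.conj g • H := hz
          rw [mem_conj_smul] at hz'
          refine ⟨QuotientGroup.mk' N (g⁻¹ * z * g), ⟨_, hz', rfl⟩, ?_⟩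
          change QuotientGroup.mk' N g * QuotientGroup.mk' N (g⁻¹ * z * g) * (QuotientGroup.mk' N g)⁻¹ = _
          rw [← map_mul, ← map_inv, ← map_mul]
          congr 1
          group
      have hx1' : x ∈ (H ⊔ MulAut.conj g • H).map (QuotientGroup.mk' N) := by
        rw [← h1]; exact hx1
      obtain ⟨k, hk, rfl⟩ := hx1'
      obtain ⟨f, hf⟩ := h.ret g
      have hsyl := hf.syl h.pg
      -- k normalizes (H ⊔ N) ⊓ K
      obtain ⟨K, hK⟩ : ∃ K, K = H ⊔ MulAut.conj g • H := ⟨_, rfl⟩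
      rw [← hK] at hsyl
      have hk' : k ∈ K := hK ▸ hk
      have hHK : H ≤ K := hK ▸ le_sup_left
      obtain ⟨M, hM⟩ : ∃ M, M = (H ⊔ N) ⊓ K := ⟨_, rfl⟩
      have hMm : ∀ z, z ∈ H ⊔ N ↔ QuotientGroup.mk' N z ∈ H.map (QuotientGroup.mk' N) := by
        intro z
        have h2 : (H.map (QuotientGroup.mk' N)).comap (QuotientGroup.mk' N) = H ⊔ N := by
          rw [comap_map_eq, QuotientGroup.ker_mk']
        rw [← h2]; rfl
      have hkn : MulAut.conj k • H ≤ M := by
        intro y hy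
        rw [mem_conj_smul] at hy
        rw [hM]
        refine ⟨?_, ?_⟩
        · change y ∈ H ⊔ N
          rw [hMm]
          have h3 := (mem_normalizer_iff.1 hx2 (QuotientGroup.mk' N (k⁻¹ * y * k))).1 ⟨_, hy, rfl⟩
          rw [← map_mul, ← map_inv, ← map_mul] at h3
          have h4 : k * (k⁻¹ * y * k) * k⁻¹ = y := by group
          rw [h4] at h3
          exact h3
        · change y ∈ K
          have h4 : y = k * (k⁻¹ * y * k) * k⁻¹ := by group
          rw [h4]
          exact K.mul_mem (K.mul_mem hk' (hHK hy)) (K.inv_mem hk')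
      have hHM : H ≤ M := by rw [hM]; exact le_inf le_sup_left hHK
      have hsM : IsSyl p H M := hsyl.mono hHM (by rw [hM]; exact inf_le_right)
      obtain ⟨z, hz, hz2⟩ := hsM.conj_le hkn (IsPGroup_conj h.pg k)
      have h5 : MulAut.conj (z * k) • H = H := by
        apply Subgroup.eq_of_le_of_card_ge
        · rw [map_mul, mul_smul]; exact hz2
        · rw [card_conj]
      rw [conj_smul_eq_iff] at h5
      have hzK : z ∈ K := by rw [hM] at hz; exact hz.2
      have h6 : z * k ∈ H := by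
        rw [← h.norm g, ← hK]
        exact ⟨K.mul_mem hzK hk', h5⟩
      have h7 : k ∈ H ⊔ N := by
        have h8 : k = z⁻¹ * (z * k) := by group
        rw [h8]
        apply mul_mem
        · apply inv_mem
          rw [hM] at hz; exact hz.1
        · exact (le_sup_left : H ≤ H ⊔ N) h6
      exact (hMm k).1 h7
    · exact le_inf le_sup_left le_normalizer

end CfsgLib.EC11
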