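import Mathlib
import Cfsg.Agent.EqBase
import Cfsg.Agent.LibEC11a
import Cfsg.Agent.LibZStar3

/-! Extremely closed abelian `p`-subgroups: minimal counterexample (seat helper11). -/

set_option autoImplicit false
set_option linter.all false

namespace CfsgLib.EC11

open Subgroup Cfsg CfsgLib.LE11Syl
open scoped Pointwise ComplexConjugate

universe u

/-- minimal counterexample to `H O_{p'}(G) ⊴ G` -/
structure MinCE (p : ℕ) {G : Type u} [Group G] (H : Subgroup G) : Prop where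
  ec : EC p H
  ih : ∀ (X : Type u) [Group X] [Finite X] (H' : Subgroup X), Nat.card X < Nat.card G → EC p H' →
    (H' ⊔ pPrimeCore p X).Normal
  nn : ¬ (H ⊔ pPrimeCore p G).Normal

variable {G : Type u} [Group G] [Finite G] {p : ℕ} [hp : Fact p.Prime] {H : Subgroup G}

theorem pprime_core_of_normal {N : Subgroup G} [N.Normal] (hN : (Nat.card N).Coprime p) : N ≤ pPrimeCore p G :=
  CfsgLib.Cores.le_pPrimeCore inferInstance hN

theorem MinCE.core (h : MinCE p H) : pPrimeCore p G = ⊥ := by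
  by_contra hne
  obtain ⟨N, hN⟩ : ∃ N, N = pPrimeCore p G := ⟨_, rfl⟩
  haveI : N.Normal := hN ▸ inferInstance
  have hlt : Nat.card (G ⧸ N) < Nat.card G := by
    have h1 := Subgroup.card_eq_card_quotient_mul_card_subgroup N
    have h2 : 1 < Nat.card N := by
      rw [Subgroup.one_lt_card_iff_ne_bot, hN]; exact hne
    have h3 : 0 < Nat.card (G ⧸ N) := Nat.card_pos
    rw [h1]
    nlinarith
  have h1 := h.ih (G ⧸ N) _ hlt (h.ec.quot N)
  have h2 : pPrimeCore p (G ⧸ N) = ⊥ := by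
    clear h1
    subst hN
    exact CfsgLib.Cores.pPrimeCore_quotient_pPrimeCore p
  rw [h2, sup_bot_eq] at h1
  apply h.nn
  have h3 : ((H.map (QuotientGroup.mk' N)).comap (QuotientGroup.mk' N)).Normal := h1.comap _
  rw [comap_map_eq, QuotientGroup.ker_mk', hN] at h3
  exact h3

theorem MinCE.not_normal (h : MinCE p H) : ¬ H.Normal := by
  intro hn
  apply h.nn
  rw [h.core, sup_bot_eq]; exact hn

theorem MinCE.ne_bot (h : MinCE p H) : H ≠ ⊥ := by
  intro hb
  apply h.not_normal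
  rw [hb]; infer_instance

/-- induction in proper subgroups -/
theorem MinCE.sub (h : MinCE p H) {X : Subgroup G} (hX : X ≠ ⊤) {g : G} (hgX : MulAut.conj g • H ≤ X) :
    ((MulAut.conj g • H).subgroupOf X ⊔ pPrimeCore p X).Normal :=
  h.ih X _ (CfsgLib.ZStar.card_lt hX) ((h.ec.conj g).subgroupOf hgX)

/-- the center -/
theorem MinCE.cen (h : MinCE p H) {w : G} (hw : w ∈ H) (hw1 : w ≠ 1) : w ∉ center G := by
  intro hc
  obtain ⟨N, hN⟩ : ∃ N, N = zpowers w := ⟨_, rfl⟩
  have hNc : N ≤ center G := by rw [hN, zpowers_le]; exact hc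
  haveI : N.Normal := ⟨fun n hn g => by
    have : g * n * g⁻¹ = n := by rw [mem_center_iff.1 (hNc hn) g, mul_inv_cancel_right]
    rw [this]; exact hn⟩
  have hNH : N ≤ H := by rw [hN, zpowers_le]; exact hw
  have hlt : Nat.card (G ⧸ N) < Nat.card G := by
    have h1 := Subgroup.card_eq_card_quotient_mul_card_subgroup N
    have h2 : 1 < Nat.card N := by
      rw [Subgroup.one_lt_card_iff_ne_bot, hN]
      intro hb
      exact hw1 (zpowers_eq_bot.1 hb)
    have h3 : 0 < Nat.card (G ⧸ N) := Nat.card_pos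
    rw [h1]
    nlinarith
  have h1 := h.ih (G ⧸ N) _ hlt (h.ec.quot N)
  have h2 : pPrimeCore p (G ⧸ N) = ⊥ := by
    -- preimage `Y` of the core has the central subgroup `N` with `p'`-quotient
    obtain ⟨Y, hY⟩ : ∃ Y, Y = (pPrimeCore p (G ⧸ N)).comap (QuotientGroup.mk' N) := ⟨_, rfl⟩
    haveI : Y.Normal := hY ▸ inferInstance
    have hNY : N ≤ Y := by
      rw [hY]
      intro x hx
      rw [mem_comap, QuotientGroup.mk'_apply, (QuotientGroup.eq_one_iff x).2 hx]
      exact one_mem _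
    have hmap : Y.map (QuotientGroup.mk' N) = pPrimeCore p (G ⧸ N) := by
      rw [hY, map_comap_eq_self_of_surjective (QuotientGroup.mk'_surjective _)]
    have hNp : IsPGroup p N := h.ec.pg.to_le hNH
    have hrel : (N.relIndex Y).Coprime p := by
      have h5 : N.relIndex Y = Nat.card (pPrimeCore p (G ⧸ N)) := by
        rw [← hmap, ← relIndex_ker, QuotientGroup.ker_mk']
      rw [h5]; exact CfsgLib.Cores.pPrimeCore_coprime p
    -- Burnside retraction of Y onto N
    have hsyl : IsSyl p N Y := ⟨hNY, hNp, fun hd => hp.out.one_lt.ne' (Nat.eq_one_of_dvd_coprimes hrel hd dvd_rfl)⟩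
    obtain ⟨P, hP⟩ := hsyl.exists_sylow
    have hPc : normalizer ((P : Subgroup Y) : Set Y) ≤ centralizer ((P : Subgroup Y) : Set Y) := by
      intro k _
      rw [mem_centralizer_iff]
      intro a ha
      apply Subtype.ext
      have h6 : (a : G) ∈ N := by rw [← hP]; exact ⟨a, ha, rfl⟩
      exact (mem_center_iff.1 (hNc h6) k).symm
    have hcomp := MonoidHom.ker_transferSylow_isComplement' P hPc
    have hnd := MonoidHom.not_dvd_card_ker_transferSylow P hPc
    obtain ⟨Q, hQ⟩ : ∃ Q, Q = (MonoidHom.transferSylow P hPc).ker := ⟨_, rfl⟩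
    haveI : Q.Normal := hQ ▸ inferInstance
    rw [← hQ] at hcomp hnd
    have hQle : Q ≤ pPrimeCore p Y := pprime_core_of_normal ((hp.out.coprime_iff_not_dvd.2 hnd).symm)
    have hYc : pPrimeCore p Y = ⊥ := by
      have h7 := CfsgLib.Cores.map_pPrimeCore_of_normal p Y
      rw [← Subgroup.map_eq_bot_iff_of_injective _ Y.subtype_injective, h7, h.core, bot_inf_eq]
    have hQb : Q = ⊥ := by rw [← le_bot_iff, ← hYc]; exact hQle
    rw [hQb, isComplement'_bot_left] at hcomp
    have hYN : Y ≤ N := by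
      intro y hy
      rw [← hP]
      exact ⟨⟨y, hy⟩, by rw [hcomp]; trivial, rfl⟩
    rw [← hmap, Subgroup.map_eq_bot_iff, QuotientGroup.ker_mk']
    exact hYN
  rw [h2, sup_bot_eq] at h1
  apply h.not_normal
  have h3 : ((H.map (QuotientGroup.mk' N)).comap (QuotientGroup.mk' N)).Normal := h1.comap _
  rw [comap_map_eq, QuotientGroup.ker_mk', sup_eq_left.2 hNH] at h3
  exact h3

theorem MinCE.centralizer_ne_top (h : MinCE p H) {w g : G} (hw : w ∈ MulAut.conj g • H) (hw1 : w ≠ 1) :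
    centralizer ({w} : Set G) ≠ ⊤ := by
  intro ht
  rw [mem_conj_smul] at hw
  have h1 : w ∈ center G := by
    rw [mem_center_iff]
    intro y
    have : y ∈ centralizer ({w} : Set G) := ht ▸ mem_top y
    exact mem_centralizer_singleton_iff.1 this
  have h2 : g⁻¹ * w * g = w := by
    rw [mem_center_iff.1 h1 g⁻¹, inv_mul_cancel_right]
  rw [h2] at hw
  exact h.cen hw hw1 h1

/-- `G` is generated by the conjugates of `H` -/
theorem MinCE.gen (h : MinCE p H) : normalClosure (H : Set G) = ⊤ := by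
  by_contra hne
  obtain ⟨L, hL⟩ : ∃ L, L = normalClosure (H : Set G) := ⟨_, rfl⟩
  rw [← hL] at hne
  haveI : L.Normal := hL ▸ inferInstance
  have hHL : ∀ g : G, MulAut.conj g • H ≤ L := by
    intro g y hy
    rw [mem_conj_smul] at hy
    have h1 : g⁻¹ * y * g ∈ L := hL ▸ subset_normalClosure hy
    have h2 : y = g * (g⁻¹ * y * g) * g⁻¹ := by group
    rw [h2]
    exact ‹L.Normal›.conj_mem _ h1 g
  have hLc : pPrimeCore p L = ⊥ := by
    have h7 := CfsgLib.Cores.map_pPrimeCore_of_normal p L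
    rw [← Subgroup.map_eq_bot_iff_of_injective _ L.subtype_injective, h7, h.core, bot_inf_eq]
  have hnorm : ∀ g : G, ((MulAut.conj g • H).subgroupOf L).Normal := by
    intro g
    have h1 := h.sub hne (hHL g)
    rwa [hLc, sup_bot_eq] at h1
  -- H ⊔ conj g H is a p-group
  apply h.not_normal
  refine ⟨fun n hn g => ?_⟩
  have h1H : MulAut.conj (1 : G) • H = H := by rw [map_one, one_smul]
  haveI := hnorm 1
  haveI := hnorm g
  have hp1 : IsPGroup p ((MulAut.conj (1:G) • H).subgroupOf L) := (IsPGroup_conj h.ec.pg 1).comap_of_injective L.subtype L.subtype_injective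
  have hp2 : IsPGroup p ((MulAut.conj g • H).subgroupOf L) := (IsPGroup_conj h.ec.pg g).comap_of_injective L.subtype L.subtype_injective
  have hp3 := IsPGroup.to_sup_of_normal_right hp1 hp2
  have hp4 : IsPGroup p ((H ⊔ MulAut.conj g • H : Subgroup G)) := by
    have h2 := hp3.map L.subtype
    rw [Subgroup.map_sup, subgroupOf_map_subtype, subgroupOf_map_subtype, inf_of_le_left (hHL 1), inf_of_le_left (hHL g), h1H] at h2
    exact h2
  have h5 := h.ec.pgroup_le_normalizer hp4 le_sup_left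
  have h6 : (H ⊔ MulAut.conj g • H : Subgroup G) = H := by
    have h7 := h.ec.norm g
    rwa [inf_eq_left.2 h5] at h7
  have h8 : MulAut.conj g • H ≤ H := by
    conv_rhs => rw [← h6]
    exact le_sup_right
  apply h8
  rw [mem_conj_smul]
  have : g⁻¹ * (g * n * g⁻¹) * g = n := by group
  rw [this]; exact hn

/-- the values of characters of the principal block -/
theorem MinCE.chi (h : MinCE p H) {M : Ideal AlgInt} (hM : IsPModular p M) {K : Subgroup G} {f : K →* G}
    (hf : Ret p K H f) (hn : K ⊓ normalizer (H : Set G) ≤ H) {v : G} (hv : v ∈ K) (hne : f ⟨v, hv⟩ ≠ 1)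
    {χ : IrrCharacter G} (hχ : χ ∈ principalBlock M G) :
    (χ : G → ℂ) v = (χ : G → ℂ) (f ⟨v, hv⟩) := by
  classical
  letI : Fintype G := Fintype.ofFinite G
  obtain ⟨w, hw⟩ := CfsgLib.BlockOrth.isPPart_exists p v
  obtain ⟨k0, hwk⟩ := CfsgLib.BlockOrth.ppart_eq_zpow hw
  obtain ⟨r, hwr, hcom, hwp, hrp⟩ := hw
  have hwK : w ∈ K := by rw [hwk]; exact K.zpow_mem hv _
  have hrK : r ∈ K := by
    have : r = w⁻¹ * v := by rw [← hwr]; group
    rw [this]; exact K.mul_mem (K.inv_mem hwK) hv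
  have hfr : f ⟨r, hrK⟩ = 1 := hf.ppart_ker h.ec.pg hrK hrp
  have hfw : f ⟨w, hwK⟩ = f ⟨v, hv⟩ := by
    have : (⟨v, hv⟩ : K) = ⟨w, hwK⟩ * ⟨r, hrK⟩ := Subtype.ext hwr.symm
    rw [this, map_mul, hfr, mul_one]
  obtain ⟨k, hk1, hk2⟩ := hf.elem h.ec.pg hwK hwp
  rw [hfw] at hk2
  obtain ⟨w0, hw0⟩ : ∃ w0, w0 = f ⟨v, hv⟩ := ⟨_, rfl⟩
  rw [← hw0] at hk2 hne ⊢
  have hw0H : w0 ∈ H := by rw [hw0]; exact hf.mem _
  -- H₁ = k H k⁻¹
  obtain ⟨H1, hH1⟩ : ∃ H1, H1 = MulAut.conj (k : G) • H := ⟨_, rfl⟩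
  have hwH1 : w ∈ H1 := by
    rw [hH1, mem_conj_smul, hk2]
    have : (k : G)⁻¹ * (k * w0 * (k : G)⁻¹) * k = w0 := by group
    rw [this]; exact hw0H
  have hw1 : w ≠ 1 := by
    rintro rfl
    apply hne
    have : w0 = (k : G)⁻¹ * (k * w0 * (k : G)⁻¹) * k := by group
    rw [this, ← hk2]; group
  have hCt : centralizer ({w} : Set G) ≠ ⊤ := h.centralizer_ne_top (hH1 ▸ hwH1) hw1
  obtain ⟨C, hC⟩ : ∃ C, C = centralizer ({w} : Set G) := ⟨_, rfl⟩
  have hmC : ∀ y, y ∈ C ↔ y * w = w * y := by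
    intro y; rw [hC, mem_centralizer_singleton_iff]
  have hab1 : ∀ a ∈ H1, ∀ b ∈ H1, a * b = b * a := by rw [hH1]; exact (h.ec.conj (k : G)).ab
  have hH1C : H1 ≤ C := by
    intro y hy
    rw [hmC]; exact hab1 y hy w hwH1
  have hH1K : H1 ≤ K := by
    rw [hH1]
    intro y hy
    rw [mem_conj_smul] at hy
    have : y = k * ((k : G)⁻¹ * y * k) * (k : G)⁻¹ := by group
    rw [this]
    exact K.mul_mem (K.mul_mem k.2 (hf.le hy)) (K.inv_mem k.2)
  have hrC : r ∈ C := by rw [hmC]; exact hcom.eq.symm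
  have hCt' : C ≠ ⊤ := hC ▸ hCt
  have hYn : (H1.subgroupOf C ⊔ pPrimeCore p C).Normal := by
    have := h.sub hCt' (g := (k : G)) (hH1 ▸ hH1C)
    rwa [← hH1] at this
  -- r ∈ Y
  obtain ⟨Y, hY⟩ : ∃ Y, Y = (H1.subgroupOf C ⊔ pPrimeCore p C).map C.subtype := ⟨_, rfl⟩
  have hH1Y : H1 ≤ Y := by
    intro y hy
    rw [hY]
    exact ⟨⟨y, hH1C hy⟩, (le_sup_left : H1.subgroupOf C ≤ _) hy, rfl⟩
  have hH1rY : MulAut.conj r • H1 ≤ Y := by
    intro y hy
    rw [mem_conj_smul] at hy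
    rw [hY]
    have h1 := hYn.conj_mem ⟨r⁻¹ * y * r, hH1C hy⟩ ((le_sup_left : H1.subgroupOf C ≤ _) hy) ⟨r, hrC⟩
    refine ⟨_, h1, ?_⟩
    change r * (r⁻¹ * y * r) * r⁻¹ = y
    group
  have hH1rK : MulAut.conj r • H1 ≤ K := by
    intro y hy
    rw [mem_conj_smul] at hy
    have : y = r * (r⁻¹ * y * r) * r⁻¹ := by group
    rw [this]
    exact K.mul_mem (K.mul_mem hrK (hH1K hy)) (K.inv_mem hrK)
  have hsK : IsSyl p H1 K := by
    have h1 := (hf.syl h.ec.pg).conj (k : G)
    rw [← hH1] at h1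
    have h2 : MulAut.conj (k : G) • K = K := by
      rw [conj_smul_eq_iff]; exact le_normalizer k.2
    rwa [h2] at h1
  have hsKY : IsSyl p H1 (K ⊓ Y) := hsK.mono (le_inf hH1K hH1Y) inf_le_left
  obtain ⟨z, hz, hz2⟩ := hsKY.conj_le (le_inf hH1rK hH1rY) (by rw [hH1]; exact IsPGroup_conj (IsPGroup_conj h.ec.pg _) _)
  have h5 : MulAut.conj (z * r) • H1 = H1 := by
    apply Subgroup.eq_of_le_of_card_ge
    · rw [map_mul, mul_smul]; exact hz2
    · rw [card_conj]
  rw [conj_smul_eq_iff] at h5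
  have hnK : K ⊓ normalizer (H : Set G) = H := le_antisymm hn (le_inf hf.le le_normalizer)
  have hn1 : K ⊓ normalizer (H1 : Set G) = H1 := by
    have h6 := conj_inf_norm (k : G) hnK
    rw [← hH1] at h6
    have h2 : MulAut.conj (k : G) • K = K := by
      rw [conj_smul_eq_iff]; exact le_normalizer k.2
    rwa [h2] at h6
  have h6 : z * r ∈ H1 := by
    rw [← hn1]
    exact ⟨K.mul_mem hz.1 hrK, h5⟩
  have hrY : r ∈ Y := by
    have : r = z⁻¹ * (z * r) := by group
    rw [this]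
    exact Y.mul_mem (Y.inv_mem hz.2) (hH1Y h6)
  have hrO : (⟨r, hrC⟩ : C) ∈ pPrimeCore p C := by
    apply mem_core_of_mem_sup (H := H1.subgroupOf C)
    · rw [hH1]; exact (IsPGroup_conj h.ec.pg _).comap_of_injective C.subtype C.subtype_injective
    · rw [hY] at hrY
      obtain ⟨y, hy, hyr⟩ := hrY
      have : y = ⟨r, hrC⟩ := Subtype.ext hyr
      rw [← this]; exact hy
    · rw [← Subgroup.orderOf_coe]; exact hrp
  have h7 : (χ : G → ℂ) (w * r) = (χ : G → ℂ) w := by
    subst hC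
    exact CfsgLib.BlockSec2.principal_const hM hwp hrO hχ
  rw [← hwr, h7, hk2]
  exact CfsgLib.CharBasic.irr_classFun χ.2 _ _

end CfsgLib.EC11
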