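import Mathlib
import Cfsg.Agent.EqBase
import Cfsg.Agent.LibCharNorm
import Cfsg.Agent.LibCharBasic2
import Cfsg.Agent.LibLE11Syl

/-! Extremely closed abelian `p`-subgroups: the numerical argument and fixed point dimensions
(seat helper11). -/

set_option autoImplicit false
set_option linter.all false

namespace CfsgLib.EC11

open Subgroup Cfsg CfsgLib.LE11Syl CfsgLib.CharBasic
open scoped Pointwise ComplexConjugate

/-- the numerical argument -/
theorem numeric {ι : Type*} (B : Finset ι) (i0 : ι) (hi0 : i0 ∈ B) (q : ℝ) (hq : 3 ≤ q) (d s a : ι → ℝ)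
    (hd : ∀ i ∈ B, 0 < d i) (hs : ∀ i ∈ B, 0 ≤ s i) (ha : ∀ i ∈ B, s i ≠ 0 → s i = d i + (q - 1) * a i)
    (hd0 : d i0 = 1) (hs0 : s i0 = q) (h3 : ∀ i ∈ B, i ≠ i0 → 3 * s i ≤ 2 * q * d i)
    (hint : ∀ i ∈ B, s i ≠ 0 → a i = 0 ∨ 1 ≤ |a i|)
    (R1 : ∑ i ∈ B, d i * (s i - d i) = 0)
    (R2 : ∑ i ∈ B, s i * (a i) ^ 2 / d i = ∑ i ∈ B, s i * a i) :
    ∀ i ∈ B, i ≠ i0 → s i ≠ 0 → a i = 0 := by
  classical
  have ha0 : a i0 = 1 := by
    have h1 := ha i0 hi0 (by rw [hs0]; intro h; linarith)
    rw [hs0, hd0] at h1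
    have h2 : (q - 1) * (a i0 - 1) = 0 := by linarith
    rcases mul_eq_zero.1 h2 with h3 | h3 <;> linarith
  obtain ⟨B', hB'⟩ : ∃ B', B' = B.filter (fun i => i ≠ i0 ∧ s i ≠ 0) := ⟨_, rfl⟩
  have hmB : ∀ i, i ∈ B' ↔ i ∈ B ∧ i ≠ i0 ∧ s i ≠ 0 := by
    intro i; rw [hB', Finset.mem_filter]
  -- R2'
  have R2' : ∑ i ∈ B', a i * (d i - a i) * s i / d i = 0 := by
    have h1 : ∑ i ∈ B, (s i * a i - s i * (a i) ^ 2 / d i) = 0 := by
      rw [Finset.sum_sub_distrib, R2, sub_self]
    rw [← h1]
    apply Finset.sum_subset_zero_on_sdiff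
    · intro i hi; exact ((hmB i).1 hi).1
    · intro i hi
      rw [Finset.mem_sdiff, hmB] at hi
      obtain ⟨hi1, hi2⟩ := hi
      by_cases hie : i = i0
      · rw [hie, ha0, hd0, hs0]; ring
      · have hsi : s i = 0 := by
          by_contra hsi
          exact hi2 ⟨hi1, hie, hsi⟩
        rw [hsi]; ring
    · intro i hi
      have := hd i ((hmB i).1 hi).1
      field_simp
  -- R1'
  have R1' : -1 ≤ ∑ i ∈ B', d i * a i := by
    have h1 : ∑ i ∈ B, d i * (s i - d i) ≤ (q - 1) + ∑ i ∈ B', (q - 1) * (d i * a i) := by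
      have h2 : ∑ i ∈ B, d i * (s i - d i) ≤ ∑ i ∈ B, (if i = i0 then (q - 1) else (if s i ≠ 0 then (q - 1) * (d i * a i) else 0)) := by
        apply Finset.sum_le_sum
        intro i hi
        by_cases hie : i = i0
        · rw [if_pos hie, hie, hd0, hs0]; linarith
        · rw [if_neg hie]
          by_cases hsi : s i ≠ 0
          · rw [if_pos hsi]
            have h5 := ha i hi hsi
            have : s i - d i = (q - 1) * a i := by linarith
            rw [this]; apply le_of_eq; ring
          · rw [if_neg hsi]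
            push Not at hsi
            rw [hsi]
            have := hd i hi
            nlinarith
      have h3 : ∑ i ∈ B, (if i = i0 then (q - 1) else (if s i ≠ 0 then (q - 1) * (d i * a i) else 0)) =
          (q - 1) + ∑ i ∈ B', (q - 1) * (d i * a i) := by
        have h4 : ∀ i ∈ B, (if i = i0 then (q - 1) else (if s i ≠ 0 then (q - 1) * (d i * a i) else 0)) =
            (if i = i0 then (q - 1) else 0) + (if (i ≠ i0 ∧ s i ≠ 0) then (q - 1) * (d i * a i) else 0) := by
          intro i _
          by_cases hie : i = i0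
          · simp [hie]
          · simp [hie]
        rw [Finset.sum_congr rfl h4, Finset.sum_add_distrib, Finset.sum_ite_eq' B i0, if_pos hi0, hB', Finset.sum_filter]
      rw [← h3]; exact h2
    rw [R1, ← Finset.mul_sum] at h1
    have hq1 : 0 < q - 1 := by linarith
    by_contra hcon
    push Not at hcon
    have : (q - 1) * ∑ i ∈ B', d i * a i < (q - 1) * (-1) := mul_lt_mul_of_pos_left hcon hq1
    linarith
  -- bound for a
  have hbd : ∀ i ∈ B', (q - 1) * a i ≤ (q - 2) * d i ∧ a i < d i := by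
    intro i hi
    obtain ⟨hi1, hi2, hi3⟩ := (hmB i).1 hi
    have h1 := h3 i hi1 hi2
    rw [ha i hi1 hi3] at h1
    have h2 := hd i hi1
    have h4 : 3 * (q - 1) * a i ≤ (2 * q - 3) * d i := by nlinarith
    refine ⟨by nlinarith, ?_⟩
    by_contra hcon
    push Not at hcon
    nlinarith
  obtain ⟨T, hT⟩ : ∃ T : ι → ℝ, T = fun i => (a i) ^ 2 * ((d i - a i) * (q - 2) - a i) / d i := ⟨_, rfl⟩
  have hid : ∀ i ∈ B', T i = a i * (d i - a i) * s i / d i - d i * a i := by
    intro i hi
    obtain ⟨hi1, hi2, hi3⟩ := (hmB i).1 hi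
    have h2 := hd i hi1
    rw [hT, ha i hi1 hi3]
    field_simp
    ring
  have hTs : ∑ i ∈ B', T i ≤ 1 := by
    rw [Finset.sum_congr rfl hid, Finset.sum_sub_distrib, R2']
    linarith
  have hT0 : ∀ i ∈ B', 0 ≤ T i := by
    intro i hi
    have h1 := (hbd i hi).1
    have h2 := hd i ((hmB i).1 hi).1
    rw [hT]
    apply div_nonneg _ h2.le
    apply mul_nonneg (sq_nonneg _)
    nlinarith
  -- no negative
  have hnn : ∀ i ∈ B', 0 ≤ a i := by
    intro i hi
    by_contra hneg
    push Not at hneg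
    obtain ⟨hi1, hi2, hi3⟩ := (hmB i).1 hi
    have h2 := hd i hi1
    have h4 : a i ≤ -1 := by
      rcases hint i hi1 hi3 with h5 | h5
      · linarith
      · rw [abs_of_neg hneg] at h5; linarith
    have h5 : 1 < T i := by
      rw [hT]
      change 1 < (a i) ^ 2 * ((d i - a i) * (q - 2) - a i) / d i
      rw [lt_div_iff₀ h2]
      have h6 : d i < (d i - a i) * (q - 2) - a i := by nlinarith
      have h7 : 1 ≤ (a i) ^ 2 := by nlinarith
      nlinarith
    have h6 := Finset.single_le_sum hT0 hi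
    linarith
  -- all zero
  intro i hi1 hi2 hi3
  have hi : i ∈ B' := (hmB i).2 ⟨hi1, hi2, hi3⟩
  have hpos : ∀ j ∈ B', 0 ≤ a j * (d j - a j) * s j / d j := by
    intro j hj
    have h1 := (hbd j hj).2
    have h2 := hd j ((hmB j).1 hj).1
    have h3 := hs j ((hmB j).1 hj).1
    have h4 := hnn j hj
    apply div_nonneg _ h2.le
    apply mul_nonneg (mul_nonneg h4 (by linarith)) h3
  have h5 := (Finset.sum_eq_zero_iff_of_nonneg hpos).1 R2' i hi
  have h1 := (hbd i hi).2
  have h2 := hd i hi1
  rw [div_eq_zero_iff] at h5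
  rcases h5 with h5 | h5
  · rcases mul_eq_zero.1 h5 with h6 | h6
    · rcases mul_eq_zero.1 h6 with h7 | h7
      · exact h7
      · linarith
    · exact absurd h6 hi3
  · linarith

/-- fixed point dimensions -/
theorem fixed_dim {G : Type*} [Group G] [Fintype G] {χ : G → ℂ} (hχ : IsIrrCharacter G χ) (H : Subgroup G) [Fintype H] :
    ∃ k n : ℕ, χ 1 = n ∧ 0 < n ∧ ∑ h : H, χ h = (Nat.card H : ℂ) * k ∧
      (∀ a b : G, H ⊔ MulAut.conj a • H ⊔ MulAut.conj b • H = ⊤ → χ ≠ (fun _ => 1) → 3 * k ≤ 2 * n) := by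
  classical
  obtain ⟨n, hn0, hn⟩ := irr_one_nat hχ
  obtain ⟨m, ρ, hρ, rfl⟩ := hχ
  have hmn : m = n := by
    have h1 : ρ.character 1 = (m : ℂ) := by
      rw [Representation.character, map_one]
      change LinearMap.trace ℂ _ 1 = _
      rw [LinearMap.trace_one, Module.finrank_fin_fun]
    rw [h1] at hn
    exact_mod_cast hn
  subst hmn
  haveI : Invertible (Nat.card H : ℂ) := invertibleOfNonzero (by exact_mod_cast Nat.card_pos.ne')
  obtain ⟨W, hW⟩ : ∃ W, W = Representation.invariants (show Representation ℂ H (Fin m → ℂ) from ρ.comp H.subtype) := ⟨_, rfl⟩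
  have hmW : ∀ v, v ∈ W ↔ ∀ h ∈ H, ρ h v = v := by
    intro v
    rw [hW]
    constructor
    · intro hv h hh; exact hv ⟨h, hh⟩
    · intro hv h; exact hv h.1 h.2
  refine ⟨Module.finrank ℂ W, m, hn, hn0, ?_, ?_⟩
  · have h1 := Representation.card_inv_mul_sum_char_eq_finrank (show Representation ℂ H (Fin m → ℂ) from ρ.comp H.subtype)
    rw [hW, ← h1, mul_inv_cancel_left₀ (by exact_mod_cast Nat.card_pos.ne')]
    rfl
  · intro a b htop hne
    -- conjugate fixed spaces
    have hconj : ∀ g : G, Module.finrank ℂ (W.map (ρ g)) = Module.finrank ℂ W := by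
      intro g
      have hinj : Function.Injective (ρ g) := by
        intro x y hxy
        have h1 : ρ g⁻¹ (ρ g x) = ρ g⁻¹ (ρ g y) := by rw [hxy]
        rwa [← Module.End.mul_apply, ← Module.End.mul_apply, ← map_mul, inv_mul_cancel, map_one] at h1
      exact (LinearEquiv.finrank_eq (Submodule.equivMapOfInjective (ρ g) hinj W)).symm
    have hmc : ∀ g v, v ∈ W.map (ρ g) → ∀ y ∈ MulAut.conj g • H, ρ y v = v := by
      rintro g _ ⟨w, hw, rfl⟩ y hy
      rw [mem_conj_smul] at hy
      have h1 := (hmW w).1 hw _ hy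
      have h2 : ρ g (ρ (g⁻¹ * y * g) w) = ρ g w := by rw [h1]
      rw [← Module.End.mul_apply, ← map_mul] at h2
      have h3 : g * (g⁻¹ * y * g) = y * g := by group
      rw [h3, map_mul, Module.End.mul_apply] at h2
      exact h2
    have hbot : (W ⊓ W.map (ρ a)) ⊓ W.map (ρ b) = ⊥ := by
      rw [eq_bot_iff]
      rintro v ⟨⟨hv1, hv2⟩, hv3⟩
      rw [Submodule.mem_bot]
      by_contra hv0
      let S : Subgroup G :=
        { carrier := {g | ρ g v = v}
          mul_mem' := by
            intro x y hx hy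
            change ρ (x * y) v = v
            rw [map_mul, Module.End.mul_apply, hy, hx]
          one_mem' := by change ρ 1 v = v; rw [map_one]; rfl
          inv_mem' := by
            intro x hx
            have hx' : ρ x v = v := hx
            change ρ x⁻¹ v = v
            conv_lhs => rw [← hx']
            rw [← Module.End.mul_apply, ← map_mul, inv_mul_cancel, map_one]; rfl }
      have hS : S = ⊤ := by
        rw [eq_top_iff, ← htop]
        apply sup_le (sup_le _ _)
        · intro x hx; exact hmc b v hv3 x hx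
        · intro x hx; exact (hmW v).1 hv1 x hx
        · intro x hx; exact hmc a v hv2 x hx
      have hfix : ∀ g, ρ g v = v := fun g => by
        have : g ∈ S := by rw [hS]; trivial
        exact this
      have h5 : 0 < Module.finrank ℂ (Representation.invariants ρ) := by
        haveI : Nontrivial (Representation.invariants ρ) := ⟨⟨⟨v, hfix⟩, 0, fun h => hv0 (congrArg Subtype.val h)⟩⟩
        exact Module.finrank_pos
      haveI : Invertible (Nat.card G : ℂ) := invertibleOfNonzero (by exact_mod_cast Nat.card_pos.ne')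
      have h6 := Representation.card_inv_mul_sum_char_eq_finrank ρ
      rw [← inner_one_right, irr_inner_ne (isIrrCharacter_character ρ) isIrrCharacter_one hne] at h6
      have : Module.finrank ℂ (Representation.invariants ρ) = 0 := by exact_mod_cast h6.symm
      omega
    have e1 := Submodule.finrank_sup_add_finrank_inf_eq W (W.map (ρ a))
    have e2 := Submodule.finrank_sup_add_finrank_inf_eq (W ⊓ W.map (ρ a)) (W.map (ρ b))
    have e3 : Module.finrank ℂ ↥(W ⊔ W.map (ρ a)) ≤ m := by
      have := Submodule.finrank_le (W ⊔ W.map (ρ a))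
      rwa [Module.finrank_fin_fun] at this
    have e4 : Module.finrank ℂ ↥((W ⊓ W.map (ρ a)) ⊔ W.map (ρ b)) ≤ m := by
      have := Submodule.finrank_le ((W ⊓ W.map (ρ a)) ⊔ W.map (ρ b))
      rwa [Module.finrank_fin_fun] at this
    rw [hconj] at e1 e2
    rw [hbot, finrank_bot] at e2
    omega

end CfsgLib.EC11
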