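import Mathlib
import Cfsg.Agent.EqBase
import Cfsg.Agent.LibEC11b
import Cfsg.Agent.LibEC11c
import Cfsg.Agent.LibCharBasic3
import Cfsg.Agent.LibBlich19

/-! Extremely closed abelian `p`-subgroups: principal block argument (seat helper11). -/

set_option autoImplicit false
set_option linter.all false

namespace CfsgLib.EC11

open Subgroup Cfsg CfsgLib.LE11Syl CfsgLib.CharBasic
open scoped Pointwise ComplexConjugate

universe u

variable {G : Type u} [Group G] [Finite G] {p : ℕ} [hp : Fact p.Prime] {H : Subgroup G}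

theorem eq_one_of_pelem {a : G} (hH : IsPGroup p H) (ha : a ∈ H) (hp' : ¬ p ∣ orderOf a) : a = 1 := by
  obtain ⟨k, hk⟩ := IsPGroup.iff_orderOf.1 hH ⟨a, ha⟩
  rw [← Subgroup.orderOf_coe] at hk
  change orderOf a = p ^ k at hk
  have h4 : k = 0 := by
    by_contra hk0
    apply hp'
    rw [hk]; exact dvd_pow_self p hk0
  rw [h4, pow_zero, orderOf_eq_one_iff] at hk
  exact hk

theorem dvd_orderOf {a : G} (hH : IsPGroup p H) (ha : a ∈ H) (ha1 : a ≠ 1) : p ∣ orderOf a := by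
  by_contra h
  exact ha1 (eq_one_of_pelem hH ha h)

theorem orderOf_conj' (g x : G) : orderOf (g * x * g⁻¹) = orderOf x := MulEquiv.orderOf_eq (MulAut.conj g) x

theorem mem_K (g : G) {a : G} (ha : a ∈ H) : g * a * g⁻¹ ∈ H ⊔ MulAut.conj g • H := by
  apply (le_sup_right : MulAut.conj g • H ≤ _)
  rw [mem_conj_smul]
  have : g⁻¹ * (g * a * g⁻¹) * g = a := by group
  rw [this]; exact ha

/-- values on products of two conjugates -/
theorem MinCE.sum_conj (h : MinCE p H) {M : Ideal AlgInt} (hM : IsPModular p M) [Fintype H] {x : G}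
    (hx : x ∈ H) (g : G) : ∃ y : G, ¬ p ∣ orderOf y ∧ ∀ χ ∈ principalBlock M G,
      ∑ a : H, (χ : G → ℂ) (g * a * g⁻¹ * x) = ∑ a : H, (χ : G → ℂ) a - (χ : G → ℂ) 1 + (χ : G → ℂ) y := by
  classical
  obtain ⟨f, hf⟩ := h.ec.ret g
  obtain ⟨F, hF⟩ : ∃ F : H → H, F = fun a => ⟨f ⟨g * a * g⁻¹, mem_K g a.2⟩ * x, H.mul_mem (hf.mem _) hx⟩ := ⟨_, rfl⟩
  have hFc : ∀ a : H, (F a : G) = f ⟨g * a * g⁻¹, mem_K g a.2⟩ * x := by intro a; rw [hF]
  have hinj : Function.Injective F := by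
    intro a b hab
    have h1 : f ⟨g * a * g⁻¹, mem_K g a.2⟩ = f ⟨g * b * g⁻¹, mem_K g b.2⟩ := by
      have := congrArg Subtype.val hab
      rw [hFc, hFc] at this
      exact mul_right_cancel this
    have h2 : f ((⟨g * a * g⁻¹, mem_K g a.2⟩ : (H ⊔ MulAut.conj g • H : Subgroup G))⁻¹ * ⟨g * b * g⁻¹, mem_K g b.2⟩) = 1 := by
      rw [map_mul, map_inv, h1, inv_mul_cancel]
    have h3 := hf.ker _ h2
    have h4 : (((⟨g * a * g⁻¹, mem_K g a.2⟩ : (H ⊔ MulAut.conj g • H : Subgroup G))⁻¹ * ⟨g * b * g⁻¹, mem_K g b.2⟩ : (H ⊔ MulAut.conj g • H : Subgroup G)) : G)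
        = g * ((a : G)⁻¹ * b) * g⁻¹ := by
      change (g * a * g⁻¹)⁻¹ * (g * b * g⁻¹) = _
      group
    rw [h4, orderOf_conj'] at h3
    have h5 := eq_one_of_pelem h.ec.pg (H.mul_mem (H.inv_mem a.2) b.2) h3
    exact Subtype.ext (inv_mul_eq_one.1 h5)
  have hbij : Function.Bijective F := Finite.injective_iff_bijective.1 hinj
  obtain ⟨a0, ha0⟩ := hbij.2 1
  have hxK : x ∈ H ⊔ MulAut.conj g • H := (le_sup_left : H ≤ _) hx
  have hval : ∀ a : H, f ⟨g * a * g⁻¹ * x, mul_mem (mem_K g a.2) hxK⟩ = F a := by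
    intro a
    have : (⟨g * a * g⁻¹ * x, mul_mem (mem_K g a.2) hxK⟩ : (H ⊔ MulAut.conj g • H : Subgroup G)) =
        ⟨g * a * g⁻¹, mem_K g a.2⟩ * ⟨x, hxK⟩ := rfl
    rw [this, map_mul, hf.fix x hx, hFc]
  refine ⟨g * a0 * g⁻¹ * x, ?_, ?_⟩
  · have h1 := hval a0
    rw [ha0] at h1
    exact hf.ker _ h1
  · intro χ hχ
    have h1 : ∑ a : H, (χ : G → ℂ) a = ∑ a : H, (χ : G → ℂ) (F a) :=
      (Function.Bijective.sum_comp hbij (fun a : H => (χ : G → ℂ) a)).symm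
    have h2 : ∑ a : H, ((χ : G → ℂ) (g * a * g⁻¹ * x) - (χ : G → ℂ) (F a)) =
        (χ : G → ℂ) (g * a0 * g⁻¹ * x) - (χ : G → ℂ) 1 := by
      rw [Finset.sum_eq_single a0]
      · rw [ha0]; rfl
      · intro b _ hb
        have h3 : F b ≠ 1 := fun he => hb (hinj (he.trans ha0.symm))
        have h4 : f ⟨g * b * g⁻¹ * x, mul_mem (mem_K g b.2) hxK⟩ ≠ 1 := by
          rw [hval]
          intro he
          exact h3 (Subtype.ext he)
        have h5 := h.chi hM hf (h.ec.norm g).le (mul_mem (mem_K g b.2) hxK) h4 hχ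
        rw [hval] at h5
        rw [h5, sub_self]
      · intro hn; exact absurd (Finset.mem_univ _) hn
    rw [Finset.sum_sub_distrib, ← h1] at h2
    linear_combination h2

/-- the principal block as a finset -/
noncomputable def Bf (M : Ideal AlgInt) (G : Type u) [Group G] [Finite G] : Finset (IrrCharacter G) :=
  (Set.toFinite (principalBlock M G)).toFinset

theorem mem_Bf {M : Ideal AlgInt} {χ : IrrCharacter G} : χ ∈ Bf M G ↔ χ ∈ principalBlock M G := by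
  rw [Bf, Set.Finite.mem_toFinset]

theorem weak_Bf {M : Ideal AlgInt} (hM : IsPModular p M) {x y : G} (hx : ¬ p ∣ orderOf x) (hy : p ∣ orderOf y) :
    ∑ χ ∈ Bf M G, (χ : G → ℂ) x * conj ((χ : G → ℂ) y) = 0 := by
  letI : Fintype G := Fintype.ofFinite G
  have hB : IsPBlock M (principalBlock M G) := ⟨⟨_, isIrrCharacter_one⟩, rfl⟩
  have h1 := CfsgLib.BlockOrth.weak_block_orth hM hB hx hy
  rw [finsum_mem_eq_finite_toFinset_sum _ (Set.toFinite (principalBlock M G))] at h1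
  exact h1

theorem strong_Bf {M : Ideal AlgInt} (hM : IsPModular p M) {x y : G} (hx : ∃ k, orderOf x = p ^ k) (hy : ∃ k, orderOf y = p ^ k)
    (hxy : ¬ IsConj x y) : ∑ χ ∈ Bf M G, (χ : G → ℂ) x * conj ((χ : G → ℂ) y) = 0 := by
  letI : Fintype G := Fintype.ofFinite G
  have hB : IsPBlock M (principalBlock M G) := ⟨⟨_, isIrrCharacter_one⟩, rfl⟩
  have h1 := CfsgLib.BlockOrth.block_orth_conj hM hB (CfsgLib.BlockOrth.isPPart_self hx)
    (CfsgLib.BlockOrth.isPPart_self hy) hxy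
  rw [finsum_mem_eq_finite_toFinset_sum _ (Set.toFinite (principalBlock M G))] at h1
  exact h1

theorem MinCE.P1 (h : MinCE p H) {M : Ideal AlgInt} (hM : IsPModular p M) [Fintype H] {x z : G}
    (hx : x ∈ H) (hz : z ∈ H) (hz1 : z ≠ 1) :
    ∑ χ ∈ Bf M G, ((∑ a : H, (χ : G → ℂ) a) * (χ : G → ℂ) x / (χ : G → ℂ) 1) * conj ((χ : G → ℂ) z) =
      ∑ χ ∈ Bf M G, (∑ a : H, (χ : G → ℂ) a) * conj ((χ : G → ℂ) z) := by
  classical
  letI : Fintype G := Fintype.ofFinite G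
  have hpz : p ∣ orderOf z := dvd_orderOf h.ec.pg hz hz1
  have key : ∀ g : G, ∑ χ ∈ Bf M G, (∑ a : H, (χ : G → ℂ) (g * a * g⁻¹ * x) - ∑ a : H, (χ : G → ℂ) a) * conj ((χ : G → ℂ) z) = 0 := by
    intro g
    obtain ⟨y, hy, hyc⟩ := h.sum_conj hM hx g
    have h1 : ∑ χ ∈ Bf M G, (∑ a : H, (χ : G → ℂ) (g * a * g⁻¹ * x) - ∑ a : H, (χ : G → ℂ) a) * conj ((χ : G → ℂ) z) =
        ∑ χ ∈ Bf M G, (χ : G → ℂ) y * conj ((χ : G → ℂ) z) - ∑ χ ∈ Bf M G, (χ : G → ℂ) 1 * conj ((χ : G → ℂ) z) := by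
      rw [← Finset.sum_sub_distrib]
      apply Finset.sum_congr rfl
      intro χ hχ
      rw [hyc χ (mem_Bf.1 hχ)]
      ring
    rw [h1, weak_Bf hM hy hpz, weak_Bf hM (by rw [orderOf_one]; exact hp.out.one_lt.ne' ∘ Nat.dvd_one.1) hpz, sub_zero]
  have h2 : ∑ g : G, ∑ χ ∈ Bf M G, (∑ a : H, (χ : G → ℂ) (g * a * g⁻¹ * x) - ∑ a : H, (χ : G → ℂ) a) * conj ((χ : G → ℂ) z) = 0 :=
    Finset.sum_eq_zero fun g _ => key g
  rw [Finset.sum_comm] at h2
  have h3 : ∀ χ ∈ Bf M G, ∑ g : G, (∑ a : H, (χ : G → ℂ) (g * a * g⁻¹ * x) - ∑ a : H, (χ : G → ℂ) a) * conj ((χ : G → ℂ) z) =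
      (Nat.card G : ℂ) * (((∑ a : H, (χ : G → ℂ) a) * (χ : G → ℂ) x / (χ : G → ℂ) 1) * conj ((χ : G → ℂ) z) -
        (∑ a : H, (χ : G → ℂ) a) * conj ((χ : G → ℂ) z)) := by
    intro χ _
    rw [← Finset.sum_mul, Finset.sum_sub_distrib, Finset.sum_comm]
    have h4 : ∀ a : H, ∑ g : G, (χ : G → ℂ) (g * a * g⁻¹ * x) = (Nat.card G : ℂ) * (χ : G → ℂ) a * (χ : G → ℂ) x / (χ : G → ℂ) 1 :=
      fun a => CfsgLib.BlockOrth.sum_conj_mul χ.2 x a
    rw [Finset.sum_congr rfl (fun a _ => h4 a), ← Finset.sum_div, ← Finset.sum_mul, ← Finset.mul_sum, Finset.sum_const,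
      Finset.card_univ, ← Nat.card_eq_fintype_card, nsmul_eq_mul]
    ring
  rw [Finset.sum_congr rfl h3, ← Finset.mul_sum, Finset.sum_sub_distrib] at h2
  have h5 : (Nat.card G : ℂ) ≠ 0 := by exact_mod_cast Nat.card_pos.ne'
  exact sub_eq_zero.1 ((mul_eq_zero.1 h2).resolve_left h5)

end CfsgLib.EC11
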