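import Mathlib
import Cfsg.Agent.EqBase
import Cfsg.Agent.LibEC11d

/-! Extremely closed abelian `p`-subgroups: `3`-generated case (seat helper11). -/

set_option autoImplicit false
set_option linter.all false

namespace CfsgLib.EC11

open Subgroup Cfsg CfsgLib.LE11Syl CfsgLib.CharBasic
open scoped Pointwise ComplexConjugate

universe u

variable {G : Type u} [Group G] [Finite G] {p : ℕ} [hp : Fact p.Prime] {H : Subgroup G}

/-- a rational algebraic integer -/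
theorem int_of_rat {z : ℂ} (hz : IsIntegral ℤ z) {r : ℚ} (hr : z = (r : ℂ)) : ∃ n : ℤ, z = n := by
  have h3 : IsIntegral ℤ (algebraMap ℚ ℂ r) := by
    have : algebraMap ℚ ℂ r = z := by rw [hr]; simp
    rw [this]; exact hz
  have h4 : IsIntegral ℤ r := (isIntegral_algebraMap_iff (algebraMap ℚ ℂ).injective).1 h3
  obtain ⟨n, hn⟩ := IsIntegrallyClosed.isIntegral_iff.1 h4
  refine ⟨n, ?_⟩
  rw [hr, ← hn]
  simp

/-- the trivial character -/
theorem one_mem_Bf [Fintype G] {M : Ideal AlgInt} (hM : IsPModular p M) :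
    (⟨fun _ => 1, isIrrCharacter_one⟩ : IrrCharacter G) ∈ Bf M G := by
  rw [mem_Bf]
  exact CfsgLib.BlockIdem.sameBlock_refl (CfsgLib.BlockR.isPrime_of_modular hM) _

/-- constancy on `H#` -/
theorem MinCE.const (h : MinCE p H) {M : Ideal AlgInt} (hM : IsPModular p M) [Fintype H] 
    {x z : G} (hx : x ∈ H) (hx1 : x ≠ 1) (hz : z ∈ H) (hz1 : z ≠ 1) {χ : IrrCharacter G} (hχ : χ ∈ Bf M G)
    (hs : ∑ a : H, (χ : G → ℂ) a ≠ 0) : (χ : G → ℂ) x = (χ : G → ℂ) z := by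
  classical
  letI : Fintype G := Fintype.ofFinite G
  obtain ⟨k, hk⟩ : ∃ k : IrrCharacter G → ℕ, ∀ χ : IrrCharacter G, ∑ a : H, (χ : G → ℂ) a = (Nat.card H : ℂ) * k χ := by
    choose k n h1 h2 h3 h4 using fun χ : IrrCharacter G => fixed_dim χ.2 H
    exact ⟨k, h3⟩
  obtain ⟨n, hn, hn0⟩ : ∃ n : IrrCharacter G → ℕ, (∀ χ : IrrCharacter G, (χ : G → ℂ) 1 = n χ) ∧ ∀ χ, 0 < n χ := by
    choose k n h1 h2 h3 h4 using fun χ : IrrCharacter G => fixed_dim χ.2 H
    exact ⟨n, h1, h2⟩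
  have e1 := h.P1 hM hx hx hx1
  have e2 := h.P1 hM hx hz hz1
  have e3 := h.P1 hM hz hx hx1
  have e4 := h.P1 hM hz hz hz1
  have h5 : ∑ χ ∈ Bf M G, ((Nat.card H : ℝ) * k χ / n χ) * Complex.normSq ((χ : G → ℂ) x - (χ : G → ℂ) z) = 0 := by
    have h6 : ((∑ χ ∈ Bf M G, ((Nat.card H : ℝ) * k χ / n χ) * Complex.normSq ((χ : G → ℂ) x - (χ : G → ℂ) z) : ℝ) : ℂ) = 0 := by
      push_cast
      have h7 : ∀ χ ∈ Bf M G, ((Nat.card H : ℂ) * k χ / n χ) * (Complex.normSq ((χ : G → ℂ) x - (χ : G → ℂ) z) : ℂ) =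
          ((∑ a : H, (χ : G → ℂ) a) * (χ : G → ℂ) x / (χ : G → ℂ) 1) * conj ((χ : G → ℂ) x)
          - ((∑ a : H, (χ : G → ℂ) a) * (χ : G → ℂ) x / (χ : G → ℂ) 1) * conj ((χ : G → ℂ) z)
          - ((∑ a : H, (χ : G → ℂ) a) * (χ : G → ℂ) z / (χ : G → ℂ) 1) * conj ((χ : G → ℂ) x)
          + ((∑ a : H, (χ : G → ℂ) a) * (χ : G → ℂ) z / (χ : G → ℂ) 1) * conj ((χ : G → ℂ) z) := by
        intro χ _
        rw [hk, hn, ← Complex.mul_conj, map_sub]
        ring
      rw [Finset.sum_congr rfl h7, Finset.sum_add_distrib, Finset.sum_sub_distrib, Finset.sum_sub_distrib, e1, e2, e3, e4]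
      ring
    exact_mod_cast h6
  have h6 := (Finset.sum_eq_zero_iff_of_nonneg (fun χ _ => by
    have := Complex.normSq_nonneg ((χ : G → ℂ) x - (χ : G → ℂ) z)
    positivity)).1 h5 χ hχ
  rcases mul_eq_zero.1 h6 with h7 | h7
  · exfalso
    apply hs
    rw [hk]
    have h8 : (n χ : ℝ) ≠ 0 := by exact_mod_cast (hn0 χ).ne'
    have h9 : (Nat.card H : ℝ) * k χ = 0 := (div_eq_zero_iff.1 h7).resolve_right h8
    exact_mod_cast h9
  · rw [Complex.normSq_eq_zero] at h7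
    exact sub_eq_zero.1 h7

/-- in the `3`-generated case -/
theorem MinCE.vanish (h : MinCE p H) {M : Ideal AlgInt} (hM : IsPModular p M) [Fintype H]
    (hq : 3 ≤ Nat.card H) {a b : G} (hab : H ⊔ MulAut.conj a • H ⊔ MulAut.conj b • H = ⊤)
    {x : G} (hx : x ∈ H) (hx1 : x ≠ 1) {χ : IrrCharacter G} (hχ : χ ∈ Bf M G) (hne : (χ : G → ℂ) ≠ fun _ => 1)
    (hs : ∑ a : H, (χ : G → ℂ) a ≠ 0) : (χ : G → ℂ) x = 0 := by
  classical
  letI : Fintype G := Fintype.ofFinite G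
  obtain ⟨k, n, hn, hn0, hk, h3⟩ : ∃ k n : IrrCharacter G → ℕ, (∀ χ : IrrCharacter G, (χ : G → ℂ) 1 = n χ) ∧
      (∀ χ, 0 < n χ) ∧ (∀ χ : IrrCharacter G, ∑ a : H, (χ : G → ℂ) a = (Nat.card H : ℂ) * k χ) ∧
      (∀ χ : IrrCharacter G, (χ : G → ℂ) ≠ (fun _ => 1) → 3 * k χ ≤ 2 * n χ) := by
    choose k n h1 h2 h3 h4 using fun χ : IrrCharacter G => fixed_dim χ.2 H
    exact ⟨k, n, h1, h2, h3, fun χ hχ => h4 χ a b hab hχ⟩
  obtain ⟨q, hqd⟩ : ∃ q : ℕ, q = Nat.card H := ⟨_, rfl⟩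
  have hqc : (Fintype.card H : ℂ) = q := by rw [hqd, Nat.card_eq_fintype_card]
  rw [← hqd] at hq
  have hqR : (3 : ℝ) ≤ q := by exact_mod_cast hq
  -- values on `H#`
  have hval : ∀ χ ∈ Bf M G, k χ ≠ 0 → ((Nat.card H : ℂ) * k χ = n χ + (q - 1) * (χ : G → ℂ) x) := by
    intro ψ hψ hψk
    have hs' : ∑ a : H, (ψ : G → ℂ) a ≠ 0 := by
      rw [hk]
      have : (Nat.card H : ℂ) ≠ 0 := by exact_mod_cast Nat.card_pos.ne'
      exact mul_ne_zero this (by exact_mod_cast hψk)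
    rw [← hk]
    have h1 : ∀ a ∈ (Finset.univ : Finset H).erase 1, (ψ : G → ℂ) a = (ψ : G → ℂ) x := by
      intro a ha
      rw [Finset.mem_erase] at ha
      exact h.const hM a.2 (fun he => ha.1 (Subtype.ext he)) hx hx1 hψ hs'
    rw [← Finset.add_sum_erase _ _ (Finset.mem_univ (1 : H)), Finset.sum_congr rfl h1, Finset.sum_const,
      Finset.card_erase_of_mem (Finset.mem_univ _), Finset.card_univ, nsmul_eq_mul]
    have h2 : ((Fintype.card H - 1 : ℕ) : ℂ) = q - 1 := by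
      rw [Nat.cast_sub Fintype.card_pos, hqc]; simp
    rw [h2, OneMemClass.coe_one, hn]
  have hreal : ∀ χ ∈ Bf M G, k χ ≠ 0 → (χ : G → ℂ) x = (((χ : G → ℂ) x).re : ℂ) ∧
      ((((χ : G → ℂ) x).re = 0) ∨ 1 ≤ |((χ : G → ℂ) x).re|) := by
    intro ψ hψ hψk
    have h1 := hval ψ hψ hψk
    have hq1 : ((q : ℂ) - 1) ≠ 0 := by
      have h2 : (q : ℂ) ≠ 1 := by
        intro h2
        have : q = 1 := by exact_mod_cast h2
        omega
      exact sub_ne_zero.2 h2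
    have h2 : (ψ : G → ℂ) x = (((((Nat.card H : ℚ) * k ψ - n ψ) / (q - 1)) : ℚ) : ℂ) := by
      push_cast
      rw [eq_div_iff hq1]
      rw [h1]; ring
    obtain ⟨m, hm⟩ := int_of_rat (char_isIntegral (irr_isCharacter ψ.2) x) h2
    rw [hm]
    refine ⟨by simp, ?_⟩
    by_cases hm0 : m = 0
    · left; rw [hm0]; simp
    · right
      have h3 : ((m : ℂ)).re = (m : ℝ) := by simp
      rw [h3]
      exact_mod_cast Int.one_le_abs hm0
  -- the data
  have key := numeric (Bf M G) (⟨fun _ => 1, isIrrCharacter_one⟩ : IrrCharacter G) (one_mem_Bf hM) (q : ℝ) hqR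
    (fun χ => (n χ : ℝ)) (fun χ => (Nat.card H : ℝ) * k χ) (fun χ => ((χ : G → ℂ) x).re)
    (fun χ _ => by exact_mod_cast hn0 χ) (fun χ _ => by positivity)
    (by
      intro ψ hψ hψs
      have hψk : k ψ ≠ 0 := by
        intro h0
        apply hψs
        change (Nat.card H : ℝ) * (k ψ : ℝ) = 0
        rw [h0]; simp
      have h1 := hval ψ hψ hψk
      rw [(hreal ψ hψ hψk).1] at h1
      exact_mod_cast h1)
    (by
      have := hn (⟨fun _ => 1, isIrrCharacter_one⟩ : IrrCharacter G)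
      change (1 : ℂ) = _ at this
      exact_mod_cast this.symm)
    (by
      have h1 := hk (⟨fun _ => 1, isIrrCharacter_one⟩ : IrrCharacter G)
      change ∑ a : H, (1 : ℂ) = _ at h1
      rw [Finset.sum_const, Finset.card_univ, nsmul_eq_mul, mul_one, hqc] at h1
      exact_mod_cast h1.symm)
    (by
      intro ψ _ hψ
      have h1 := h3 ψ (fun he => hψ (Subtype.ext he))
      have h2 : (3 : ℝ) * k ψ ≤ 2 * n ψ := by exact_mod_cast h1
      change 3 * ((Nat.card H : ℝ) * (k ψ : ℝ)) ≤ 2 * (q : ℝ) * (n ψ : ℝ)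
      rw [← hqd]
      have h4 : (0 : ℝ) ≤ q := by positivity
      nlinarith)
    (by
      intro ψ hψ hψs
      have hψk : k ψ ≠ 0 := by
        intro h0
        apply hψs
        change (Nat.card H : ℝ) * (k ψ : ℝ) = 0
        rw [h0]; simp
      exact (hreal ψ hψ hψk).2)
    (by
      -- R1
      have h1 : ∑ ψ ∈ Bf M G, (n ψ : ℂ) * ((Nat.card H : ℂ) * k ψ - n ψ) = 0 := by
        have h2 : ∀ ψ ∈ Bf M G, (n ψ : ℂ) * ((Nat.card H : ℂ) * k ψ - n ψ) =
            ∑ a ∈ (Finset.univ : Finset H).erase 1, (ψ : G → ℂ) 1 * conj ((ψ : G → ℂ) a) := by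
          intro ψ _
          rw [← Finset.mul_sum, hn, ← map_sum]
          have h3 : ∑ a ∈ (Finset.univ : Finset H).erase 1, (ψ : G → ℂ) a = (Nat.card H : ℂ) * k ψ - n ψ := by
            rw [← hk, ← Finset.add_sum_erase _ _ (Finset.mem_univ (1 : H)), OneMemClass.coe_one, hn]
            ring
          rw [h3, map_sub, map_mul, Complex.conj_natCast, Complex.conj_natCast, Complex.conj_natCast]
        rw [Finset.sum_congr rfl h2, Finset.sum_comm]
        apply Finset.sum_eq_zero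
        intro a ha
        rw [Finset.mem_erase] at ha
        apply weak_Bf hM (by rw [orderOf_one]; exact hp.out.one_lt.ne' ∘ Nat.dvd_one.1)
        exact dvd_orderOf h.ec.pg a.2 (fun he => ha.1 (Subtype.ext he))
      exact_mod_cast h1)
    (by
      -- R2
      have h1 := h.P1 hM hx hx hx1
      have h2 : ∑ ψ ∈ Bf M G, ((Nat.card H : ℂ) * k ψ * ((((ψ : G → ℂ) x).re : ℂ)) ^ 2 / n ψ) =
          ∑ ψ ∈ Bf M G, (Nat.card H : ℂ) * k ψ * (((ψ : G → ℂ) x).re : ℂ) := by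
        have h3 : ∀ ψ ∈ Bf M G, ((∑ a : H, (ψ : G → ℂ) a) * (ψ : G → ℂ) x / (ψ : G → ℂ) 1) * conj ((ψ : G → ℂ) x) =
            ((Nat.card H : ℂ) * k ψ * ((((ψ : G → ℂ) x).re : ℂ)) ^ 2 / n ψ) := by
          intro ψ hψ
          rw [hk, hn]
          by_cases hψk : k ψ = 0
          · rw [hψk]; simp
          · rw [(hreal ψ hψ hψk).1, Complex.conj_ofReal, Complex.ofReal_re]
            ring
        have h4 : ∀ ψ ∈ Bf M G, (∑ a : H, (ψ : G → ℂ) a) * conj ((ψ : G → ℂ) x) =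
            (Nat.card H : ℂ) * k ψ * (((ψ : G → ℂ) x).re : ℂ) := by
          intro ψ hψ
          rw [hk]
          by_cases hψk : k ψ = 0
          · rw [hψk]; simp
          · rw [(hreal ψ hψ hψk).1, Complex.conj_ofReal, Complex.ofReal_re]
        rw [← Finset.sum_congr rfl h3, h1, Finset.sum_congr rfl h4]
      exact_mod_cast h2)
  have hχk : k χ ≠ 0 := by
    intro h0
    apply hs
    rw [hk, h0]; simp
  have h1 := key χ hχ (fun he => hne (congrArg Subtype.val he)) (by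
    have : (Nat.card H : ℝ) ≠ 0 := by exact_mod_cast Nat.card_pos.ne'
    exact mul_ne_zero this (by exact_mod_cast hχk))
  rw [(hreal χ hχ hχk).1]
  change ((((χ : G → ℂ) x).re : ℝ) : ℂ) = 0
  rw [h1]; simp

end CfsgLib.EC11
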