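import Mathlib
import Cfsg.Agent.EqBase
import Cfsg.Agent.LibEC11e

/-! Extremely closed abelian `p`-subgroups: conclusion (seat helper11). -/

set_option autoImplicit false
set_option linter.all false

namespace CfsgLib.EC11

open Subgroup Cfsg CfsgLib.LE11Syl CfsgLib.CharBasic
open scoped Pointwise ComplexConjugate

universe u

variable {G : Type u} [Group G] [Finite G] {p : ℕ} [hp : Fact p.Prime] {H : Subgroup G}

/-- separation of points by the principal block -/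
theorem MinCE.sep (h : MinCE p H) {M : Ideal AlgInt} (hM : IsPModular p M)
    (hq : 3 ≤ Nat.card H) {a b : G} (hab : H ⊔ MulAut.conj a • H ⊔ MulAut.conj b • H = ⊤)
    {x y : G} (hx : x ∈ H) (hy : y ∈ H) (hxy : ∀ χ ∈ Bf M G, (χ : G → ℂ) x = (χ : G → ℂ) y) : x = y := by
  classical
  letI : Fintype G := Fintype.ofFinite G
  letI : Fintype H := Fintype.ofFinite H
  letI : CommGroup H := { (inferInstance : Group H) with mul_comm := fun a b => Subtype.ext (h.ec.ab a a.2 b b.2) }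
  by_contra hne
  have hz : (⟨x, hx⟩ : H)⁻¹ * ⟨y, hy⟩ ≠ 1 := by
    intro he
    apply hne
    have := inv_mul_eq_one.1 he
    exact congrArg Subtype.val this
  obtain ⟨θ, hθ⟩ : ∃ θ : H →* ℂˣ, θ ((⟨x, hx⟩ : H)⁻¹ * ⟨y, hy⟩) ≠ 1 := by
    haveI : NeZero (Monoid.exponent H) := ⟨Monoid.exponent_ne_zero_of_finite⟩
    exact CommGroup.exists_apply_ne_one_of_hasEnoughRootsOfUnity H ℂ hz
  obtain ⟨k, n, hn, hn0, hk⟩ : ∃ k n : IrrCharacter G → ℕ, (∀ χ : IrrCharacter G, (χ : G → ℂ) 1 = n χ) ∧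
      (∀ χ, 0 < n χ) ∧ (∀ χ : IrrCharacter G, ∑ a : H, (χ : G → ℂ) a = (Nat.card H : ℂ) * k χ) := by
    choose k n h1 h2 h3 h4 using fun χ : IrrCharacter G => fixed_dim χ.2 H
    exact ⟨k, n, h1, h2, h3⟩
  have hθc : IsIrrCharacter H (fun a => (θ a : ℂ)) := isIrrCharacter_hom θ
  have hcard : (Nat.card H : ℂ) ≠ 0 := by exact_mod_cast Nat.card_pos.ne'
  obtain ⟨m, hm⟩ : ∃ m : IrrCharacter G → ℕ, ∀ χ : IrrCharacter G, ∑ a : H, (χ : G → ℂ) a * conj (θ a : ℂ) = (Nat.card H : ℂ) * m χ := by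
    have : ∀ χ : IrrCharacter G, ∃ m : ℕ, ∑ a : H, (χ : G → ℂ) a * conj (θ a : ℂ) = (Nat.card H : ℂ) * m := by
      intro χ
      obtain ⟨m, hm⟩ := char_mult (isCharacter_restrict (irr_isCharacter χ.2) H) (irr_isCharacter hθc)
      refine ⟨m, ?_⟩
      rw [← hm, classInner, mul_inv_cancel_left₀ hcard]
    choose m hm using this
    exact ⟨m, hm⟩
  -- the relation
  have hrel : ∑ χ ∈ Bf M G, (n χ : ℂ) * (m χ - k χ) = 0 := by
    have h1 : ∑ a : H, ((θ a : ℂ) - 1) * ∑ χ ∈ Bf M G, (χ : G → ℂ) 1 * conj ((χ : G → ℂ) a) = 0 := by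
      apply Finset.sum_eq_zero
      intro a _
      by_cases ha : a = 1
      · rw [ha, map_one]; simp
      · have h2 : ∑ χ ∈ Bf M G, (χ : G → ℂ) 1 * conj ((χ : G → ℂ) a) = 0 := by
          apply weak_Bf hM (by rw [orderOf_one]; exact hp.out.one_lt.ne' ∘ Nat.dvd_one.1)
          exact dvd_orderOf h.ec.pg a.2 (fun he => ha (Subtype.ext he))
        rw [h2, mul_zero]
    have h2 : ∑ a : H, ((θ a : ℂ) - 1) * ∑ χ ∈ Bf M G, (χ : G → ℂ) 1 * conj ((χ : G → ℂ) a) =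
        ∑ χ ∈ Bf M G, (Nat.card H : ℂ) * ((n χ : ℂ) * (m χ - k χ)) := by
      simp_rw [Finset.mul_sum]
      rw [Finset.sum_comm]
      apply Finset.sum_congr rfl
      intro χ _
      have h3 : ∑ a : H, ((θ a : ℂ) - 1) * ((χ : G → ℂ) 1 * conj ((χ : G → ℂ) a)) =
          (n χ : ℂ) * conj (∑ a : H, (χ : G → ℂ) a * conj (θ a : ℂ) - ∑ a : H, (χ : G → ℂ) a) := by
        rw [← Finset.sum_sub_distrib, map_sum, Finset.mul_sum]
        apply Finset.sum_congr rfl
        intro a _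
        rw [map_sub, map_mul, Complex.conj_conj, hn]
        ring
      rw [h3, hm, hk, map_sub, map_mul, map_mul, Complex.conj_natCast, Complex.conj_natCast, Complex.conj_natCast]
      ring
    rw [h2, ← Finset.mul_sum] at h1
    exact (mul_eq_zero.1 h1).resolve_left hcard
  -- trivial character
  obtain ⟨e, he⟩ : ∃ e : IrrCharacter G, e = ⟨fun _ => 1, isIrrCharacter_one⟩ := ⟨_, rfl⟩
  have heB : e ∈ Bf M G := he ▸ one_mem_Bf hM
  have hev : ∀ g, (e : G → ℂ) g = 1 := by intro g; rw [he]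
  have hek : k e = 1 := by
    have h1 := hk e
    simp only [hev] at h1
    rw [Finset.sum_const, Finset.card_univ, nsmul_eq_mul, mul_one, ← Nat.card_eq_fintype_card] at h1
    have h2 : (Nat.card H : ℂ) * (k e - 1) = 0 := by rw [mul_sub, ← h1]; ring
    have h3 := (mul_eq_zero.1 h2).resolve_left hcard
    have h4 : (k e : ℂ) = 1 := sub_eq_zero.1 h3
    exact_mod_cast h4
  have hen : n e = 1 := by
    have h1 := hn e
    rw [hev] at h1
    exact_mod_cast h1.symm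
  have hem : m e = 0 := by
    have h1 := hm e
    simp only [hev] at h1
    have h2 : classInner (fun _ : H => (1 : ℂ)) (fun a : H => (θ a : ℂ)) = 0 := by
      apply irr_inner_ne isIrrCharacter_one hθc
      intro h3
      apply hθ
      apply Units.ext
      exact (congrFun h3 _).symm
    rw [classInner] at h2
    have h3 := (mul_eq_zero.1 h2).resolve_left (inv_ne_zero hcard)
    rw [h3] at h1
    have h4 := (mul_eq_zero.1 h1.symm).resolve_left hcard
    exact_mod_cast h4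
  -- characters with fixed points
  have hmk : ∀ χ ∈ Bf M G, χ ≠ e → k χ ≠ 0 → m χ = k χ := by
    intro χ hχ hχe hχk
    have hs : ∑ a : H, (χ : G → ℂ) a ≠ 0 := by
      rw [hk]; exact mul_ne_zero hcard (by exact_mod_cast hχk)
    have hv : ∀ a : H, a ≠ 1 → (χ : G → ℂ) a = 0 := by
      intro a ha
      apply h.vanish hM hq hab a.2 (fun he => ha (Subtype.ext he)) hχ _ hs
      intro h1
      apply hχe
      rw [he]; exact Subtype.ext h1
    have h1 : ∑ a : H, (χ : G → ℂ) a * conj (θ a : ℂ) = ∑ a : H, (χ : G → ℂ) a := by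
      apply Finset.sum_congr rfl
      intro a _
      by_cases ha : a = 1
      · rw [ha, map_one]; simp
      · rw [hv a ha, zero_mul]
    rw [hm, hk] at h1
    have := mul_left_cancel₀ hcard h1
    exact_mod_cast this
  have hsum : ∑ χ ∈ (Bf M G).filter (fun χ => χ ≠ e ∧ k χ = 0), n χ * m χ = 1 := by
    have h1 : ∑ χ ∈ Bf M G, (n χ : ℂ) * (m χ - k χ) =
        ((∑ χ ∈ (Bf M G).filter (fun χ => χ ≠ e ∧ k χ = 0), n χ * m χ : ℕ) : ℂ) - 1 := by
      have h2 : ∀ χ ∈ Bf M G, (n χ : ℂ) * (m χ - k χ) =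
          (if (χ ≠ e ∧ k χ = 0) then ((n χ : ℂ) * m χ) else 0) - (if χ = e then 1 else 0) := by
        intro χ hχ
        by_cases hχe : χ = e
        · rw [if_neg (fun h => h.1 hχe), if_pos hχe, hχe, hen, hem, hek]; simp
        · rw [if_neg hχe]
          by_cases hχk : k χ = 0
          · rw [if_pos ⟨hχe, hχk⟩, hχk]; simp
          · rw [if_neg (fun h => hχk h.2), hmk χ hχ hχe hχk]; simp
      rw [Finset.sum_congr rfl h2, Finset.sum_sub_distrib, Finset.sum_ite_eq' (Bf M G) e, if_pos heB, Finset.sum_filter]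
      push_cast
      rfl
    rw [h1] at hrel
    have := sub_eq_zero.1 hrel
    exact_mod_cast this
  obtain ⟨χ, hχS, hχ0⟩ : ∃ χ ∈ (Bf M G).filter (fun χ => χ ≠ e ∧ k χ = 0), n χ * m χ ≠ 0 := by
    by_contra hcon
    push Not at hcon
    rw [Finset.sum_eq_zero hcon] at hsum
    exact absurd hsum (by norm_num)
  have hle : n χ * m χ ≤ 1 := by
    rw [← hsum]
    exact Finset.single_le_sum (f := fun χ => n χ * m χ) (fun _ _ => Nat.zero_le _) hχS
  have h1 : n χ * m χ = 1 := by omega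
  have hn1 : n χ = 1 := Nat.eq_one_of_mul_eq_one_right h1
  have hm1 : m χ = 1 := Nat.eq_one_of_mul_eq_one_left h1
  have hval : ∀ a : H, (χ : G → ℂ) a = θ a := by
    have h2 := hm χ
    rw [hm1, Nat.cast_one, mul_one] at h2
    have hnorm : ∀ a : H, ‖(χ : G → ℂ) a * conj (θ a : ℂ)‖ ≤ 1 := by
      intro a
      rw [norm_mul, Complex.norm_conj, CfsgLib.Blich19.norm_lin θ a, mul_one]
      have := char_norm_le (irr_isCharacter χ.2) (a : G)
      rw [hn, hn1] at this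
      simpa using this
    have hre : ∀ a : H, ((χ : G → ℂ) a * conj (θ a : ℂ)).re = 1 := by
      have h3 : ∑ a : H, (1 - ((χ : G → ℂ) a * conj (θ a : ℂ)).re) = 0 := by
        rw [Finset.sum_sub_distrib, ← Complex.re_sum, h2, Finset.sum_const, Finset.card_univ, ← Nat.card_eq_fintype_card]
        simp
      have h4 := (Finset.sum_eq_zero_iff_of_nonneg (fun a _ => by
        have := (Complex.re_le_norm ((χ : G → ℂ) a * conj (θ a : ℂ))).trans (hnorm a)
        linarith)).1 h3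
      intro a
      have := h4 a (Finset.mem_univ _)
      linarith
    intro a
    have h5 : (χ : G → ℂ) a * conj (θ a : ℂ) = 1 := by
      have h6 := hnorm a
      have h7 : ‖(χ : G → ℂ) a * conj (θ a : ℂ)‖ ^ 2 = ((χ : G → ℂ) a * conj (θ a : ℂ)).re ^ 2 + ((χ : G → ℂ) a * conj (θ a : ℂ)).im ^ 2 := by
        rw [← Complex.normSq_eq_norm_sq, Complex.normSq_apply]; ring
      rw [hre a] at h7
      have h8 : 0 ≤ ‖(χ : G → ℂ) a * conj (θ a : ℂ)‖ := norm_nonneg _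
      have h9 : ((χ : G → ℂ) a * conj (θ a : ℂ)).im = 0 := by nlinarith
      apply Complex.ext
      · rw [hre a]; simp
      · rw [h9]; simp
    have h6 := CfsgLib.Blich19.lin_conj_mul θ a
    calc (χ : G → ℂ) a = (χ : G → ℂ) a * (conj (θ a : ℂ) * (θ a : ℂ)) := by rw [h6, mul_one]
      _ = ((χ : G → ℂ) a * conj (θ a : ℂ)) * (θ a : ℂ) := by ring
      _ = _ := by rw [h5, one_mul]
  apply hθ
  have h2 := hxy χ (Finset.mem_filter.1 hχS).1
  have h3 := hval ⟨x, hx⟩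
  have h4 := hval ⟨y, hy⟩
  rw [h3, h4] at h2
  rw [map_mul, map_inv, Units.ext h2, inv_mul_cancel]

theorem MinCE.iso_of_gen (h : MinCE p H) (hq : 3 ≤ Nat.card H) {a b : G}
    (hab : H ⊔ MulAut.conj a • H ⊔ MulAut.conj b • H = ⊤) :
    ∀ (g : G), ∀ x ∈ H, ¬ p ∣ orderOf (x⁻¹ * (g * x * g⁻¹)) := by
  classical
  letI : Fintype G := Fintype.ofFinite G
  obtain ⟨M, hM⟩ := CfsgLib.ZStar.exists_modular hp.out
  intro g x hx
  obtain ⟨f, hf⟩ := h.ec.ret g
  have hxK : x ∈ H ⊔ MulAut.conj g • H := (le_sup_left : H ≤ _) hx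
  have hy1 : ∀ x (hx : x ∈ H), x ≠ 1 → f ⟨g * x * g⁻¹, mem_K g hx⟩ ≠ 1 := by
    intro x hx hx1 he
    have h1 := hf.ker _ he
    change ¬ p ∣ orderOf (g * x * g⁻¹) at h1
    rw [orderOf_conj'] at h1
    exact hx1 (eq_one_of_pelem h.ec.pg hx h1)
  by_cases hx1 : x = 1
  · rw [hx1]
    simp only [inv_one, mul_one, mul_inv_cancel, orderOf_one]
    exact hp.out.one_lt.ne' ∘ Nat.dvd_one.1
  have h1 : x = f ⟨g * x * g⁻¹, mem_K g hx⟩ := by
    apply h.sep hM hq hab hx (hf.mem _)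
    intro χ hχ
    have h2 := h.chi hM hf (h.ec.norm g).le (mem_K g hx) (hy1 x hx hx1) (mem_Bf.1 hχ)
    rw [← h2]
    exact (irr_classFun χ.2 _ _).symm
  have h2 : f (⟨x, hxK⟩⁻¹ * ⟨g * x * g⁻¹, mem_K g hx⟩) = 1 := by
    rw [map_mul, map_inv, hf.fix x hx, ← h1, inv_mul_cancel]
  exact hf.ker _ h2

/-- the case of proper `3`-generated subgroups -/
theorem MinCE.ret3 (h : MinCE p H) (hall : ∀ a b : G, H ⊔ MulAut.conj a • H ⊔ MulAut.conj b • H ≠ ⊤) (a b c : G) :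
    ∃ f : (MulAut.conj a • H ⊔ MulAut.conj b • H ⊔ MulAut.conj c • H : Subgroup G) →* G,
      Ret p _ (MulAut.conj a • H) f := by
  obtain ⟨X, hX⟩ : ∃ X, X = (MulAut.conj a • H ⊔ MulAut.conj b • H ⊔ MulAut.conj c • H : Subgroup G) := ⟨_, rfl⟩
  rw [← hX]
  have hXt : X ≠ ⊤ := by
    intro ht
    apply hall (a⁻¹ * b) (a⁻¹ * c)
    have h1 : MulAut.conj a • (H ⊔ MulAut.conj (a⁻¹ * b) • H ⊔ MulAut.conj (a⁻¹ * c) • H : Subgroup G) = ⊤ := by
      rw [Subgroup.smul_sup, Subgroup.smul_sup, ← mul_smul, ← mul_smul, ← map_mul, ← map_mul, mul_inv_cancel_left, mul_inv_cancel_left, ← hX]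
      exact ht
    have h2 := congrArg (fun Y => (MulAut.conj a)⁻¹ • Y) h1
    simp only [inv_smul_smul] at h2
    rw [h2]
    ext y
    simp only [mem_top, iff_true]
    rw [Subgroup.mem_pointwise_smul_iff_inv_smul_mem]
    exact mem_top _
  have haX : MulAut.conj a • H ≤ X := by rw [hX]; exact le_sup_left.trans le_sup_left
  have hbX : MulAut.conj b • H ≤ X := by rw [hX]; exact le_sup_right.trans le_sup_left
  have hcX : MulAut.conj c • H ≤ X := by rw [hX]; exact le_sup_right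
  have hn := h.sub hXt haX
  apply exists_ret_of_core haX (IsPGroup_conj h.ec.pg a)
  obtain ⟨Y, hY⟩ : ∃ Y, Y = (MulAut.conj a • H).subgroupOf X ⊔ pPrimeCore p X := ⟨_, rfl⟩
  rw [← hY] at hn ⊢
  have key : ∀ d : G, MulAut.conj d • H ≤ X → MulAut.conj d • H ≤ Y.map X.subtype := by
    intro d hd
    obtain ⟨f, hf⟩ := (h.ec.conj a).ret (d * a⁻¹)
    have h1 : MulAut.conj (d * a⁻¹) • MulAut.conj a • H = MulAut.conj d • H := by
      rw [← mul_smul, ← map_mul, inv_mul_cancel_right]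
    have hle : MulAut.conj d • H ≤ MulAut.conj a • H ⊔ MulAut.conj (d * a⁻¹) • MulAut.conj a • H := by
      rw [h1]; exact le_sup_right
    obtain ⟨m, hm, hm2⟩ := (hf.syl (IsPGroup_conj h.ec.pg a)).conj_le hle (IsPGroup_conj h.ec.pg d)
    have hmX : m ∈ X := by
      have h2 : MulAut.conj a • H ⊔ MulAut.conj (d * a⁻¹) • MulAut.conj a • H ≤ X := by
        rw [h1]; exact sup_le haX hd
      exact h2 hm
    intro y hy
    have h3 : m * y * m⁻¹ ∈ MulAut.conj a • H := by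
      apply hm2
      rw [mem_conj_smul]
      have : m⁻¹ * (m * y * m⁻¹) * m = y := by group
      rw [this]; exact hy
    have h4 : (⟨m * y * m⁻¹, haX h3⟩ : X) ∈ Y := by
      rw [hY]
      exact (le_sup_left : (MulAut.conj a • H).subgroupOf X ≤ _) h3
    have h5 := hn.conj_mem _ h4 (⟨m, hmX⟩ : X)⁻¹
    refine ⟨_, h5, ?_⟩
    change m⁻¹ * (m * y * m⁻¹) * m⁻¹⁻¹ = y
    group
  rw [eq_top_iff]
  intro y _
  have h6 : X ≤ Y.map X.subtype := by
    conv_lhs => rw [hX]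
    exact sup_le (sup_le (key a haX) (key b hbX)) (key c hcX)
  obtain ⟨z, hz, hzy⟩ := h6 y.2
  have : z = y := Subtype.ext hzy
  rw [← this]; exact hz

theorem MinCE.iso_of_not_gen (h : MinCE p H) (hall : ∀ a b : G, H ⊔ MulAut.conj a • H ⊔ MulAut.conj b • H ≠ ⊤) :
    ∀ (g : G), ∀ x ∈ H, ¬ p ∣ orderOf (x⁻¹ * (g * x * g⁻¹)) := by
  have hT : ∀ a b c u v w : G, u ∈ MulAut.conj a • H → v ∈ MulAut.conj b • H → w ∈ MulAut.conj c • H →
      ¬ p ∣ orderOf (u⁻¹ * v) → ¬ p ∣ orderOf (v⁻¹ * w) → ¬ p ∣ orderOf (u⁻¹ * w) := by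
    intro a b c u v w hu hv hw h1 h2
    obtain ⟨f, hf⟩ := h.ret3 hall a b c
    obtain ⟨X, hX⟩ : ∃ X, X = (MulAut.conj a • H ⊔ MulAut.conj b • H ⊔ MulAut.conj c • H : Subgroup G) := ⟨_, rfl⟩
    have huX : u ∈ (MulAut.conj a • H ⊔ MulAut.conj b • H ⊔ MulAut.conj c • H : Subgroup G) := (le_sup_left.trans le_sup_left : MulAut.conj a • H ≤ _) hu
    have hvX : v ∈ (MulAut.conj a • H ⊔ MulAut.conj b • H ⊔ MulAut.conj c • H : Subgroup G) := (le_sup_right.trans le_sup_left : MulAut.conj b • H ≤ _) hv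
    have hwX : w ∈ (MulAut.conj a • H ⊔ MulAut.conj b • H ⊔ MulAut.conj c • H : Subgroup G) := (le_sup_right : MulAut.conj c • H ≤ _) hw
    have e1 := hf.ppart_ker (IsPGroup_conj h.ec.pg a) (mul_mem (inv_mem huX) hvX) h1
    have e2 := hf.ppart_ker (IsPGroup_conj h.ec.pg a) (mul_mem (inv_mem hvX) hwX) h2
    have e3 : f ⟨u⁻¹ * w, mul_mem (inv_mem huX) hwX⟩ = 1 := by
      have : (⟨u⁻¹ * w, mul_mem (inv_mem huX) hwX⟩ : (MulAut.conj a • H ⊔ MulAut.conj b • H ⊔ MulAut.conj c • H : Subgroup G)) =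
          ⟨u⁻¹ * v, mul_mem (inv_mem huX) hvX⟩ * ⟨v⁻¹ * w, mul_mem (inv_mem hvX) hwX⟩ := by
        apply Subtype.ext
        change u⁻¹ * w = (u⁻¹ * v) * (v⁻¹ * w)
        group
      rw [this, map_mul, e1, e2, one_mul]
    exact hf.ker _ e3
  have hS : ∀ a c u t : G, u ∈ MulAut.conj a • H → t ∈ MulAut.conj c • H → ¬ p ∣ orderOf (u⁻¹ * (t * u * t⁻¹)) := by
    intro a c u t hu ht
    obtain ⟨f, hf⟩ := h.ret3 hall a c c
    have huX : u ∈ (MulAut.conj a • H ⊔ MulAut.conj c • H ⊔ MulAut.conj c • H : Subgroup G) := (le_sup_left.trans le_sup_left : MulAut.conj a • H ≤ _) hu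
    have htX : t ∈ (MulAut.conj a • H ⊔ MulAut.conj c • H ⊔ MulAut.conj c • H : Subgroup G) := (le_sup_right : MulAut.conj c • H ≤ _) ht
    have e3 : f (⟨u, huX⟩⁻¹ * (⟨t, htX⟩ * ⟨u, huX⟩ * ⟨t, htX⟩⁻¹)) = 1 := by
      rw [map_mul, map_mul, map_mul, map_inv, map_inv, (h.ec.conj a).ab _ (hf.mem ⟨t, htX⟩) _ (hf.mem ⟨u, huX⟩)]
      group
    exact hf.ker _ e3
  have hone : ¬ p ∣ orderOf (1 : G) := by rw [orderOf_one]; exact hp.out.one_lt.ne' ∘ Nat.dvd_one.1
  have main : ∀ g ∈ normalClosure (H : Set G), ∀ a u : G, u ∈ MulAut.conj a • H → ¬ p ∣ orderOf (u⁻¹ * (g * u * g⁻¹)) := by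
    intro g hg
    unfold normalClosure at hg
    induction hg using closure_induction with
    | mem g hg =>
      intro a u hu
      obtain ⟨t, ht, hgt⟩ := Group.mem_conjugatesOfSet_iff.1 hg
      obtain ⟨c, hc⟩ := isConj_iff.1 hgt
      apply hS a c u g hu
      rw [mem_conj_smul, ← hc]
      have : c⁻¹ * (c * t * c⁻¹) * c = t := by group
      rw [this]; exact ht
    | one =>
      intro a u hu
      have : u⁻¹ * (1 * u * 1⁻¹) = 1 := by group
      rw [this]; exact hone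
    | mul g1 g2 _ _ h1 h2 =>
      intro a u hu
      have hu2 : g2 * u * g2⁻¹ ∈ MulAut.conj (g2 * a) • H := by
        rw [mem_conj_smul] at hu ⊢
        have : (g2 * a)⁻¹ * (g2 * u * g2⁻¹) * (g2 * a) = a⁻¹ * u * a := by group
        rw [this]; exact hu
      have hu3 : g1 * g2 * u * (g1 * g2)⁻¹ ∈ MulAut.conj (g1 * g2 * a) • H := by
        rw [mem_conj_smul] at hu ⊢
        have : (g1 * g2 * a)⁻¹ * (g1 * g2 * u * (g1 * g2)⁻¹) * (g1 * g2 * a) = a⁻¹ * u * a := by group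
        rw [this]; exact hu
      apply hT a (g2 * a) (g1 * g2 * a) u (g2 * u * g2⁻¹) _ hu hu2 hu3 (h2 a u hu)
      have h4 := h1 (g2 * a) _ hu2
      have : (g2 * u * g2⁻¹)⁻¹ * (g1 * (g2 * u * g2⁻¹) * g1⁻¹) = (g2 * u * g2⁻¹)⁻¹ * (g1 * g2 * u * (g1 * g2)⁻¹) := by group
      rwa [this] at h4
    | inv g _ h1 =>
      intro a u hu
      have hu2 : g⁻¹ * u * g ∈ MulAut.conj (g⁻¹ * a) • H := by
        rw [mem_conj_smul] at hu ⊢
        have : (g⁻¹ * a)⁻¹ * (g⁻¹ * u * g) * (g⁻¹ * a) = a⁻¹ * u * a := by group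
        rw [this]; exact hu
      have h4 := h1 _ _ hu2
      have : (g⁻¹ * u * g)⁻¹ * (g * (g⁻¹ * u * g) * g⁻¹) = (u⁻¹ * (g⁻¹ * u * g⁻¹⁻¹))⁻¹ := by group
      rw [this, orderOf_inv] at h4
      exact h4
  intro g x hx
  apply main g (by rw [h.gen]; exact mem_top g) 1 x
  rw [map_one, one_smul]; exact hx

end CfsgLib.EC11
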