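import Mathlib
import Cfsg.Agent.EqBase
import Cfsg.Agent.LibEC11f

/-! Extremely closed abelian `p`-subgroups: `H O_{p'}(G) ⊴ G` (seat helper11). -/

set_option autoImplicit false
set_option linter.all false

namespace CfsgLib.EC11

open Subgroup Cfsg CfsgLib.LE11Syl CfsgLib.CharBasic
open scoped Pointwise ComplexConjugate

universe u

variable {G : Type u} [Group G] [Finite G] {p : ℕ} [hp : Fact p.Prime] {H : Subgroup G}

theorem ret_iso (hiso : ∀ (g : G), ∀ x ∈ H, ¬ p ∣ orderOf (x⁻¹ * (g * x * g⁻¹))) (hH : IsPGroup p H) {g : G}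
    {f : (H ⊔ MulAut.conj g • H : Subgroup G) →* G} (hf : Ret p _ H f) {x : G} (hx : x ∈ H) :
    f ⟨g * x * g⁻¹, mem_K g hx⟩ = x := by
  have hxK : x ∈ H ⊔ MulAut.conj g • H := (le_sup_left : H ≤ _) hx
  have h1 := hf.ppart_ker hH (mul_mem (inv_mem hxK) (mem_K g hx)) (hiso g x hx)
  have h2 : (⟨x⁻¹ * (g * x * g⁻¹), mul_mem (inv_mem hxK) (mem_K g hx)⟩ : (H ⊔ MulAut.conj g • H : Subgroup G)) =
      ⟨x, hxK⟩⁻¹ * ⟨g * x * g⁻¹, mem_K g hx⟩ := rfl
  rw [h2, map_mul, map_inv, hf.fix x hx] at h1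
  exact (inv_mul_eq_one.1 h1).symm

theorem MinCE.iso_false (h : MinCE p H) (hq : 3 ≤ Nat.card H)
    (hiso : ∀ (g : G), ∀ x ∈ H, ¬ p ∣ orderOf (x⁻¹ * (g * x * g⁻¹))) : False := by
  classical
  letI : Fintype G := Fintype.ofFinite G
  obtain ⟨M, hM⟩ := CfsgLib.ZStar.exists_modular hp.out
  -- multiplicativity
  have hmul : ∀ χ ∈ Bf M G, ∀ x ∈ H, ∀ y ∈ H, y * x ≠ 1 →
      (χ : G → ℂ) y * (χ : G → ℂ) x = (χ : G → ℂ) 1 * (χ : G → ℂ) (y * x) := by
    intro χ hχ x hx y hy hyx
    have h1 := CfsgLib.BlockOrth.sum_conj_mul χ.2 x y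
    have h2 : ∀ g : G, (χ : G → ℂ) (g * y * g⁻¹ * x) = (χ : G → ℂ) (y * x) := by
      intro g
      obtain ⟨f, hf⟩ := h.ec.ret g
      have hxK : x ∈ H ⊔ MulAut.conj g • H := (le_sup_left : H ≤ _) hx
      have h3 : f ⟨g * y * g⁻¹ * x, mul_mem (mem_K g hy) hxK⟩ = y * x := by
        have : (⟨g * y * g⁻¹ * x, mul_mem (mem_K g hy) hxK⟩ : (H ⊔ MulAut.conj g • H : Subgroup G)) =
            ⟨g * y * g⁻¹, mem_K g hy⟩ * ⟨x, hxK⟩ := rfl
        rw [this, map_mul, hf.fix x hx, ret_iso hiso h.ec.pg hf hy]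
      have h4 := h.chi hM hf (h.ec.norm g).le (mul_mem (mem_K g hy) hxK) (by rw [h3]; exact hyx) (mem_Bf.1 hχ)
      rw [h4, h3]
    rw [Finset.sum_congr rfl (fun g _ => h2 g), Finset.sum_const, Finset.card_univ,
      ← Nat.card_eq_fintype_card, nsmul_eq_mul] at h1
    have h3 : (Nat.card G : ℂ) ≠ 0 := by exact_mod_cast Nat.card_pos.ne'
    have h4 := irr_one_ne_zero χ.2
    rw [mul_assoc, mul_div_assoc] at h1
    have h5 := mul_left_cancel₀ h3 h1
    rw [h5, mul_div_cancel₀ _ h4]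
  -- an element of H
  obtain ⟨x, hx, hx1⟩ : ∃ x ∈ H, x ≠ 1 := by
    by_contra hcon
    push Not at hcon
    exact h.ne_bot (eq_bot_iff.2 fun y hy => mem_bot.2 (hcon y hy))
  -- `χ x = 0` or `|χ x| = χ 1`
  have hdich : ∀ χ ∈ Bf M G, (χ : G → ℂ) x = 0 ∨ ‖(χ : G → ℂ) x‖ = ((χ : G → ℂ) 1).re := by
    intro χ hχ
    obtain ⟨n, hn0, hn⟩ := irr_one_nat χ.2
    have hn0' : (n : ℂ) ≠ 0 := by exact_mod_cast hn0.ne'
    by_cases hnorm : ‖(χ : G → ℂ) x‖ = ((χ : G → ℂ) 1).re
    · exact Or.inr hnorm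
    left
    have hinv : (χ : G → ℂ) x⁻¹ = conj ((χ : G → ℂ) x) := char_inv_eq_conj (irr_isCharacter χ.2) x
    have h1 : ∀ b ∈ H, b ≠ 1 → b * x ≠ 1 → (χ : G → ℂ) b = 0 := by
      intro b hb hb1 hbx
      have e1 := hmul χ hχ x hx b hb hbx
      have e2 := hmul χ hχ x⁻¹ (H.inv_mem hx) (b * x) (H.mul_mem hb hx) (by rw [mul_inv_cancel_right]; exact hb1)
      rw [mul_inv_cancel_right, hinv] at e2
      rw [hn] at e1 e2 hnorm
      have e3 : ((χ : G → ℂ) x * conj ((χ : G → ℂ) x) - (n : ℂ) * n) * (χ : G → ℂ) b = 0 := by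
        have : (χ : G → ℂ) b * (χ : G → ℂ) x * conj ((χ : G → ℂ) x) = (n : ℂ) * ((n : ℂ) * (χ : G → ℂ) b) := by
          rw [e1, ← e2]; ring
        linear_combination this
      rcases mul_eq_zero.1 e3 with e4 | e4
      · exfalso
        apply hnorm
        rw [Complex.mul_conj, Complex.normSq_eq_norm_sq, sub_eq_zero] at e4
        have e5 : ‖(χ : G → ℂ) x‖ ^ 2 = (n : ℝ) * n := by exact_mod_cast e4
        have e6 : ‖(χ : G → ℂ) x‖ = n := by
          have : ‖(χ : G → ℂ) x‖ ^ 2 = (n : ℝ) ^ 2 := by rw [e5]; ring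
          exact (pow_left_inj₀ (norm_nonneg _) (by positivity) (by norm_num)).1 this
        rw [e6]; simp
      · exact e4
    by_cases hxx : x * x = 1
    · -- pick b ≠ 1, x
      obtain ⟨b, hb, hb1, hbx⟩ : ∃ b ∈ H, b ≠ 1 ∧ b ≠ x := by
        by_contra hcon
        push Not at hcon
        have h2 : (H : Set G) ⊆ (({1, x} : Finset G) : Set G) := by
          intro y hy
          by_cases hy1 : y = 1
          · rw [hy1]; simp
          · rw [hcon y hy hy1]; simp
        have h3 := Set.ncard_le_ncard h2 (Set.toFinite _)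
        rw [Set.ncard_coe_finset] at h3
        have h4 : (H : Set G).ncard = Nat.card H := rfl
        have h5 := Finset.card_le_two (a := (1 : G)) (b := x)
        omega
      have e1 := h1 b hb hb1 (by
        intro he
        apply hbx
        have h2 := eq_inv_of_mul_eq_one_left he
        rw [h2]
        exact inv_eq_of_mul_eq_one_left hxx)
      -- χ(b) χ(b⁻¹ x) = χ(1) χ(x)
      have e2 := hmul χ hχ (b⁻¹ * x) (H.mul_mem (H.inv_mem hb) hx) b hb (by rw [mul_inv_cancel_left]; exact hx1)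
      rw [mul_inv_cancel_left, e1, zero_mul, hn] at e2
      exact (mul_eq_zero.1 e2.symm).resolve_left hn0'
    · exact h1 x hx hx1 hxx
  -- commutators
  obtain ⟨N, hN⟩ : ∃ N, N = normalClosure (Set.range fun g : G => x * g * x⁻¹ * g⁻¹) := ⟨_, rfl⟩
  haveI : N.Normal := hN ▸ inferInstance
  have hNp : p ∣ Nat.card N := by
    by_contra hnd
    have h1 : N ≤ pPrimeCore p G := pprime_core_of_normal ((hp.out.coprime_iff_not_dvd.2 hnd).symm)
    rw [h.core, le_bot_iff] at h1
    apply h.cen hx hx1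
    rw [mem_center_iff]
    intro g
    have h2 : x * g * x⁻¹ * g⁻¹ ∈ N := hN ▸ subset_normalClosure ⟨g, rfl⟩
    rw [h1, mem_bot, mul_inv_eq_one, mul_inv_eq_iff_eq_mul] at h2
    exact h2.symm
  -- Sylow subgroup containing H
  obtain ⟨S, hS⟩ := h.ec.pg.exists_le_sylow
  obtain ⟨t, htN, htS, ht1⟩ : ∃ t ∈ N, t ∈ (S : Subgroup G) ∧ t ≠ 1 := by
    have h1 := (isSyl_top S).inf_of_normal (N := N) le_top (by
      intro g _
      exact (Subgroup.normalizer_eq_top_iff.2 inferInstance).ge (mem_top g))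
    have h2 := h1.ne_bot hNp
    rw [Subgroup.ne_bot_iff_exists_ne_one] at h2
    obtain ⟨y, hy⟩ := h2
    exact ⟨y, y.2.2, y.2.1, fun he => hy (Subtype.ext he)⟩
  have hSn := h.ec.pgroup_le_normalizer S.isPGroup' hS
  have hpel : ∀ s ∈ (S : Subgroup G), ∃ k, orderOf s = p ^ k := by
    intro s hs
    obtain ⟨k, hk⟩ := IsPGroup.iff_orderOf.1 S.isPGroup' ⟨s, hs⟩
    exact ⟨k, by rw [← hk, ← Subgroup.orderOf_coe]⟩
  have hxS : x ∈ (S : Subgroup G) := hS hx
  have hxtS : x * t ∈ (S : Subgroup G) := mul_mem hxS htS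
  have hnc : ¬ IsConj x (x * t) := by
    intro hc
    obtain ⟨g, hg⟩ := isConj_iff.1 hc
    obtain ⟨f, hf⟩ := h.ec.ret g
    have h1 : g * x * g⁻¹ ∈ H := by
      rw [← h.ec.norm g]
      refine ⟨mem_K g hx, ?_⟩
      rw [hg]; exact hSn hxtS
    have h2 := ret_iso hiso h.ec.pg hf hx
    rw [hf.fix _ h1] at h2
    rw [hg] at h2
    apply ht1
    have h3 : x * t = x * 1 := by rw [mul_one]; exact h2
    exact mul_left_cancel h3
  have horth := strong_Bf hM (hpel x hxS) (hpel _ hxtS) hnc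
  have hterm : ∀ χ ∈ Bf M G, (χ : G → ℂ) x * conj ((χ : G → ℂ) (x * t)) = ((Complex.normSq ((χ : G → ℂ) x) : ℝ) : ℂ) := by
    intro χ hχ
    rcases hdich χ hχ with h1 | h1
    · rw [h1, zero_mul]; simp
    · -- x is in the centre of χ
      have h2 : (χ : G → ℂ) (x * t) = (χ : G → ℂ) x := by
        obtain ⟨n, ρ, hρ, hρχ⟩ := χ.2
        rw [← hρχ] at h1 ⊢
        rw [Representation.char_one, Complex.natCast_re, norm_character_eq_iff] at h1
        obtain ⟨ω, hω⟩ := h1
        have hker : N ≤ (MonoidHom.ker (ρ : G →* ((Fin n → ℂ) →ₗ[ℂ] (Fin n → ℂ)))) := by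
          rw [hN]
          apply normalClosure_le_normal
          rintro _ ⟨g, rfl⟩
          change ρ (x * g * x⁻¹ * g⁻¹) = 1
          have hcomm : ρ x * ρ g = ρ g * ρ x := by
            rw [hω]
            ext v
            simp
          rw [map_mul, map_mul, map_mul, hcomm, mul_assoc (ρ g), ← map_mul ρ x x⁻¹, mul_inv_cancel, map_one, mul_one, ← map_mul, mul_inv_cancel, map_one]
        have h3 : ρ t = 1 := hker htN
        change LinearMap.trace ℂ _ (ρ (x * t)) = LinearMap.trace ℂ _ (ρ x)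
        rw [map_mul, h3, mul_one]
      rw [h2, Complex.mul_conj]
  rw [Finset.sum_congr rfl hterm, ← Complex.ofReal_sum] at horth
  have h1 : ∑ χ ∈ Bf M G, Complex.normSq ((χ : G → ℂ) x) = 0 := by exact_mod_cast horth
  have h2 := (Finset.sum_eq_zero_iff_of_nonneg (fun χ _ => Complex.normSq_nonneg _)).1 h1 _ (one_mem_Bf hM)
  change Complex.normSq 1 = 0 at h2
  simp at h2

theorem MinCE.false (h : MinCE p H) : False := by
  classical
  have hne := h.ne_bot
  obtain ⟨x, hx, hx1⟩ : ∃ x ∈ H, x ≠ 1 := by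
    by_contra hcon
    push Not at hcon
    exact h.ne_bot (eq_bot_iff.2 fun y hy => mem_bot.2 (hcon y hy))
  by_cases hq : 3 ≤ Nat.card H
  · apply h.iso_false hq
    by_cases hall : ∀ a b : G, H ⊔ MulAut.conj a • H ⊔ MulAut.conj b • H ≠ ⊤
    · exact h.iso_of_not_gen hall
    · push Not at hall
      obtain ⟨a, b, hab⟩ := hall
      exact h.iso_of_gen hq hab
  · -- order two
    have h1 : 1 < Nat.card H := by rw [Subgroup.one_lt_card_iff_ne_bot]; exact hne
    have hc2 : Nat.card H = 2 := by omega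
    have hp2 : p = 2 := by
      obtain ⟨k, hk⟩ := h.ec.pg.exists_card_eq
      rw [hc2] at hk
      have hk0 : k ≠ 0 := by rintro rfl; simp at hk
      have : p ∣ 2 := by rw [hk]; exact dvd_pow_self p hk0
      exact (Nat.prime_dvd_prime_iff_eq hp.out Nat.prime_two).1 this
    subst hp2
    have hxo : orderOf x = 2 := by
      have h2 : orderOf x ∣ 2 := by rw [← hc2]; exact Subgroup.orderOf_dvd_natCard H hx
      rcases (Nat.dvd_prime Nat.prime_two).1 h2 with h3 | h3
      · exact absurd (orderOf_eq_one_iff.1 h3) hx1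
      · exact h3
    have hall : ∀ y ∈ H, y ≠ 1 → y = x := by
      intro y hy hy1
      by_contra hne
      have h2 : (({1, x, y} : Finset G) : Set G) ⊆ (H : Set G) := by
        intro z hz
        simp only [Finset.coe_insert, Finset.coe_singleton, Set.mem_insert_iff, Set.mem_singleton_iff] at hz
        rcases hz with rfl | rfl | rfl
        · exact H.one_mem
        · exact hx
        · exact hy
      have h3 := Set.ncard_le_ncard h2 (Set.toFinite _)
      rw [Set.ncard_coe_finset] at h3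
      have h4 : (H : Set G).ncard = Nat.card H := rfl
      have h5 : ({1, x, y} : Finset G).card = 3 := by
        rw [Finset.card_insert_of_notMem, Finset.card_insert_of_notMem, Finset.card_singleton]
        · simpa using Ne.symm hne
        · simp only [Finset.mem_insert, Finset.mem_singleton, not_or]
          exact ⟨Ne.symm hx1, Ne.symm hy1⟩
      omega
    have hiso : IsIsolatedInvolution x := by
      refine ⟨hxo, ?_⟩
      intro g hg
      obtain ⟨f, hf⟩ := h.ec.ret g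
      have h2 : f ⟨g * x * g⁻¹, mem_K g hx⟩ = x := by
        apply hall _ (hf.mem _)
        intro he
        have h3 := hf.ker _ he
        change ¬ 2 ∣ orderOf (g * x * g⁻¹) at h3
        rw [orderOf_conj'] at h3
        exact hx1 (eq_one_of_pelem h.ec.pg hx h3)
      have hxK : x ∈ H ⊔ MulAut.conj g • H := (le_sup_left : H ≤ _) hx
      have h4 : f (⟨x, hxK⟩⁻¹ * ⟨g * x * g⁻¹, mem_K g hx⟩) = 1 := by
        rw [map_mul, map_inv, hf.fix x hx, h2, inv_mul_cancel]
      have h5 := hf.ker _ h4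
      change ¬ 2 ∣ orderOf (x⁻¹ * (g * x * g⁻¹)) at h5
      have h6 : (x⁻¹ * (g * x * g⁻¹)) ^ 2 = 1 := by
        have hx2 : x ^ 2 = 1 := by rw [← hxo, pow_orderOf_eq_one]
        rw [(hg.inv_left).mul_pow, inv_pow, hx2, conj_pow, hx2]; group
      have h7 : orderOf (x⁻¹ * (g * x * g⁻¹)) ∣ 2 := orderOf_dvd_of_pow_eq_one h6
      rcases (Nat.dvd_prime Nat.prime_two).1 h7 with h8 | h8
      · exact (inv_mul_eq_one.1 (orderOf_eq_one_iff.1 h8)).symm
      · rw [h8] at h5; exact absurd dvd_rfl h5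
    have hz := CfsgLib.ZStar.zstar hiso
    apply h.cen hx hx1
    rw [mem_center_iff]
    intro g
    have h2 := hz g
    have h3 : oddCore G = ⊥ := h.core
    rw [h3, mem_bot, mul_inv_eq_one, mul_inv_eq_iff_eq_mul] at h2
    exact h2.symm

theorem main_aux (p : ℕ) [hp : Fact p.Prime] (n : ℕ) : ∀ (G : Type u) [Group G] [Finite G] (H : Subgroup G), Nat.card G = n →
    EC p H → (H ⊔ pPrimeCore p G).Normal := by
  induction n using Nat.strong_induction_on with
  | _ n ih =>
    intro G _ _ H hn hec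
    by_contra hcon
    exact MinCE.false (p := p) (H := H) ⟨hec, fun X _ _ H' hlt h' => ih _ (hn ▸ hlt) X H' rfl h', hcon⟩

/-- an extremely closed abelian `p`-subgroup is normal modulo `O_{p'}(G)` -/
theorem main (h : EC p H) : (H ⊔ pPrimeCore p G).Normal := main_aux p _ G H rfl h

/-- Frattini argument -/
theorem norm_sup_core (h : EC p H) : normalizer (H : Set G) ⊔ pPrimeCore p G = ⊤ := by
  have hn := main h
  obtain ⟨Y, hY⟩ : ∃ Y, Y = H ⊔ pPrimeCore p G := ⟨_, rfl⟩
  rw [← hY] at hn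
  have hHY : H ≤ Y := by rw [hY]; exact le_sup_left
  have hcore : pPrimeCore p G ≤ Y := by rw [hY]; exact le_sup_right
  have hsyl : IsSyl p H Y := by
    refine ⟨hHY, h.pg, ?_⟩
    intro hd
    have h1 : H.relIndex Y ∣ Nat.card (pPrimeCore p G) := by
      have e1 : H.relIndex Y * Nat.card H = Nat.card Y := by
        rw [mul_comm]
        have := Subgroup.card_mul_index (H.subgroupOf Y)
        rw [Nat.card_congr (Subgroup.subgroupOfEquivOfLe hHY).toEquiv] at this
        exact this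
      have e2 : Nat.card Y ∣ Nat.card H * Nat.card (pPrimeCore p G) := by
        rw [hY]
        exact CfsgLib.Cores.card_sup_dvd_of_normal _ _
      rw [← e1, mul_comm (Nat.card H)] at e2
      exact Nat.dvd_of_mul_dvd_mul_right Nat.card_pos e2
    exact hp.out.one_lt.ne' (Nat.eq_one_of_dvd_coprimes (CfsgLib.Cores.pPrimeCore_coprime p) (hd.trans h1) dvd_rfl)
  rw [eq_top_iff]
  intro g _
  obtain ⟨m, hm, hmn⟩ := hsyl.frattini (g := g) (by
    rw [Subgroup.normalizer_eq_top_iff.2 hn]; exact mem_top g)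
  have h1 : m ∈ normalizer (H : Set G) ⊔ pPrimeCore p G := by
    have : Y ≤ normalizer (H : Set G) ⊔ pPrimeCore p G := by
      rw [hY]; exact sup_le_sup le_normalizer le_rfl
    exact this hm
  have h2 : g = m⁻¹ * (m * g) := by group
  rw [h2]
  exact mul_mem (inv_mem h1) ((le_sup_left : normalizer (H : Set G) ≤ _) hmn)

end CfsgLib.EC11
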