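import Mathlib
import Cfsg.Agent.EqBase
import Cfsg.Agent.LibEC11b
import Cfsg.Agent.LibCycCorr

/-! Extremely closed abelian `p`-subgroups acting on `p'`-groups: tools (seat helper11). -/

set_option autoImplicit false
set_option linter.all false

namespace CfsgLib.EC11

open Subgroup Cfsg CfsgLib.LE11Syl
open scoped Pointwise ComplexConjugate

universe u

section PPart
variable {G : Type u} [Group G] [Finite G] {p : ℕ} [hp : Fact p.Prime] {H : Subgroup G}

/-- the `p`-part and the `p'`-part of an element of `K` -/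
theorem ppart_mem (h : EC p H) {K : Subgroup G} {f : K →* G} (hf : Ret p K H f)
    (hn : K ⊓ normalizer (H : Set G) ≤ H) {v : G} (hv : v ∈ K) :
    ∃ w r k : G, v = w * r ∧ w * r = r * w ∧ (∃ n, orderOf w = p ^ n) ∧ ¬ p ∣ orderOf r ∧ w = k * f ⟨v, hv⟩ * k⁻¹ ∧
      w ∈ MulAut.conj k • H ∧ MulAut.conj k • H ≤ centralizer ({w} : Set G) ∧
      ∃ hr : r ∈ centralizer ({w} : Set G), (⟨r, hr⟩ : centralizer ({w} : Set G)) ∈
        normalClosure (((MulAut.conj k • H).subgroupOf (centralizer ({w} : Set G)) : Subgroup _) : Set _) := by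
  classical
  letI : Fintype G := Fintype.ofFinite G
  obtain ⟨w, hw⟩ := CfsgLib.BlockOrth.isPPart_exists p v
  obtain ⟨k0, hwk⟩ := CfsgLib.BlockOrth.ppart_eq_zpow hw
  obtain ⟨r, hwr, hcom, hwp, hrp⟩ := hw
  have hwK : w ∈ K := by rw [hwk]; exact K.zpow_mem hv _
  have hrK : r ∈ K := by
    have : r = w⁻¹ * v := by rw [← hwr]; group
    rw [this]; exact K.mul_mem (K.inv_mem hwK) hv
  have hfr : f ⟨r, hrK⟩ = 1 := hf.ppart_ker h.pg hrK hrp
  have hfw : f ⟨w, hwK⟩ = f ⟨v, hv⟩ := by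
    have : (⟨v, hv⟩ : K) = ⟨w, hwK⟩ * ⟨r, hrK⟩ := Subtype.ext hwr.symm
    rw [this, map_mul, hfr, mul_one]
  obtain ⟨k, hk1, hk2⟩ := hf.elem h.pg hwK hwp
  rw [hfw] at hk2
  refine ⟨w, r, k, hwr.symm, hcom.eq, hwp, hrp, hk2, ?_⟩
  obtain ⟨w0, hw0⟩ : ∃ w0, w0 = f ⟨v, hv⟩ := ⟨_, rfl⟩
  rw [← hw0] at hk2
  have hw0H : w0 ∈ H := by rw [hw0]; exact hf.mem _
  obtain ⟨H1, hH1⟩ : ∃ H1, H1 = MulAut.conj (k : G) • H := ⟨_, rfl⟩
  have hwH1 : w ∈ H1 := by
    rw [hH1, mem_conj_smul, hk2]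
    have : (k : G)⁻¹ * (k * w0 * (k : G)⁻¹) * k = w0 := by group
    rw [this]; exact hw0H
  obtain ⟨C, hC⟩ : ∃ C, C = centralizer ({w} : Set G) := ⟨_, rfl⟩
  have hmC : ∀ y, y ∈ C ↔ y * w = w * y := by
    intro y; rw [hC, mem_centralizer_singleton_iff]
  have hab1 : ∀ a ∈ H1, ∀ b ∈ H1, a * b = b * a := by rw [hH1]; exact (h.conj (k : G)).ab
  have hH1C : H1 ≤ C := by
    intro y hy
    rw [hmC]; exact hab1 y hy w hwH1
  have hH1K : H1 ≤ K := by
    rw [hH1]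
    intro y hy
    rw [mem_conj_smul] at hy
    have : y = k * ((k : G)⁻¹ * y * k) * (k : G)⁻¹ := by group
    rw [this]
    exact K.mul_mem (K.mul_mem k.2 (hf.le hy)) (K.inv_mem k.2)
  have hrC : r ∈ C := by rw [hmC]; exact hcom.eq.symm
  obtain ⟨Y, hY⟩ : ∃ Y, Y = (normalClosure ((H1.subgroupOf C : Subgroup C) : Set C)).map C.subtype := ⟨_, rfl⟩
  have hH1Y : H1 ≤ Y := by
    intro y hy
    rw [hY]
    exact ⟨⟨y, hH1C hy⟩, subset_normalClosure hy, rfl⟩
  have hH1rY : MulAut.conj r • H1 ≤ Y := by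
    intro y hy
    rw [mem_conj_smul] at hy
    rw [hY]
    have h1 := (normalClosure_normal (s := ((H1.subgroupOf C : Subgroup C) : Set C))).conj_mem ⟨r⁻¹ * y * r, hH1C hy⟩ (subset_normalClosure hy) ⟨r, hrC⟩
    refine ⟨_, h1, ?_⟩
    change r * (r⁻¹ * y * r) * r⁻¹ = y
    group
  have hH1rK : MulAut.conj r • H1 ≤ K := by
    intro y hy
    rw [mem_conj_smul] at hy
    have : y = r * (r⁻¹ * y * r) * r⁻¹ := by group
    rw [this]
    exact K.mul_mem (K.mul_mem hrK (hH1K hy)) (K.inv_mem hrK)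
  have hsK : IsSyl p H1 K := by
    have h1 := (hf.syl h.pg).conj (k : G)
    rw [← hH1] at h1
    have h2 : MulAut.conj (k : G) • K = K := by
      rw [conj_smul_eq_iff]; exact le_normalizer k.2
    rwa [h2] at h1
  have hsKY : IsSyl p H1 (K ⊓ Y) := hsK.mono (le_inf hH1K hH1Y) inf_le_left
  obtain ⟨z, hz, hz2⟩ := hsKY.conj_le (le_inf hH1rK hH1rY) (by rw [hH1]; exact IsPGroup_conj (IsPGroup_conj h.pg _) _)
  have h5 : MulAut.conj (z * r) • H1 = H1 := by
    apply Subgroup.eq_of_le_of_card_ge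
    · rw [map_mul, mul_smul]; exact hz2
    · rw [card_conj]
  rw [conj_smul_eq_iff] at h5
  have hnK : K ⊓ normalizer (H : Set G) = H := le_antisymm hn (le_inf hf.le le_normalizer)
  have hn1 : K ⊓ normalizer (H1 : Set G) = H1 := by
    have h6 := conj_inf_norm (k : G) hnK
    rw [← hH1] at h6
    have h2 : MulAut.conj (k : G) • K = K := by
      rw [conj_smul_eq_iff]; exact le_normalizer k.2
    rwa [h2] at h6
  have h6 : z * r ∈ H1 := by
    rw [← hn1]
    exact ⟨K.mul_mem hz.1 hrK, h5⟩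
  have hrY : r ∈ Y := by
    have : r = z⁻¹ * (z * r) := by group
    rw [this]
    exact Y.mul_mem (Y.inv_mem hz.2) (hH1Y h6)
  rw [← hH1]
  subst hC
  refine ⟨hwH1, hH1C, hrC, ?_⟩
  rw [hY] at hrY
  obtain ⟨y, hy, hyr⟩ := hrY
  have : y = ⟨r, hrC⟩ := Subtype.ext hyr
  rw [← this]; exact hy

end PPart

section Beta
open CfsgLib.CharBasic CfsgLib.Clifford CfsgLib.Gallagher CfsgLib.Extend CfsgLib.GalChar CfsgLib.CycCorr

variable {Γ : Type u} [Group Γ] [Fintype Γ] {G S : Subgroup Γ} [hG : G.Normal] [Fintype G]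
  (hcop : (Nat.card G).Coprime (Nat.card S)) (htop : G ⊔ S = ⊤)
  {χ : G → ℂ} (hχ : IsIrrCharacter G χ) {χh : Γ → ℂ} (hχh : IsIrrCharacter Γ χh) (hext : ∀ g : G, χh g = χ g)
  (hdet : (detOrder χh).Coprime (Nat.card S))

include hcop htop hχ hχh hext hdet in
/-- the multiplicities are rational integers -/
theorem mult_int' (C S' : Subgroup Γ) [Fintype C] (hCG : C ≤ G) (hS' : S' ≤ S) (hcomm : ∀ c ∈ C, ∀ s ∈ S', c * s = s * c)
    {β : C → ℂ} (hβ : IsIrrCharacter C β) (a : Γ) (ha : a ∈ S') : ∃ z : ℤ, mult C χh β a = z := by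
  haveI := Fintype.ofFinite S'
  set A : S' → ℂ := fun a : S' => mult C χh β a with hA
  have hAc : IsCharacter S' A := mult_isCharacter C S' hcomm (irr_isCharacter hχh) (irr_isCharacter hβ)
  have hcardG : Nat.card G ∣ Nat.card Γ := Subgroup.card_subgroup_dvd_card G
  have hcardS : Nat.card S ∣ Nat.card Γ := Subgroup.card_subgroup_dvd_card S
  have hcardSS : Nat.card S' ∣ Nat.card S := Subgroup.card_dvd_of_le hS'
  have hcardΓ : Nat.card Γ = Nat.card G * Nat.card S := by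
    rw [← index_eq hcop htop, Subgroup.card_mul_index]
  apply exists_int_of_fixed (char_isIntegral hAc ⟨a, ha⟩)
  intro σ
  obtain ⟨k, hk, hk2⟩ : ∃ k : ℕ, k.Coprime (Nat.card S) ∧ ∀ ζ : ℂ, ζ ^ Nat.card S = 1 → σ ζ = ζ ^ k := by
    have hn : 0 < Nat.card S := Nat.card_pos
    haveI : NeZero (Nat.card S) := ⟨hn.ne'⟩
    have hζ : IsPrimitiveRoot (Complex.exp (2 * Real.pi * Complex.I / (Nat.card S))) (Nat.card S) :=
      Complex.isPrimitiveRoot_exp _ hn.ne'
    set ζ := Complex.exp (2 * Real.pi * Complex.I / (Nat.card S))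
    have hσζ : IsPrimitiveRoot (σ ζ) (Nat.card S) := hζ.map_of_injective σ.injective
    obtain ⟨k, hk, hk'⟩ := hζ.isPrimitiveRoot_iff.1 hσζ
    refine ⟨k, hk'.1, fun z hz' => ?_⟩
    obtain ⟨m, -, hm⟩ := hζ.eq_pow_of_pow_eq_one hz'
    rw [← hm, map_pow, ← hk'.2, ← pow_mul, ← pow_mul, mul_comm]
  obtain ⟨k', h1, h2⟩ := Nat.chineseRemainder hcop 1 k
  have hk' : k'.Coprime (Nat.card Γ) := by
    rw [hcardΓ]
    apply Nat.Coprime.mul_right
    · have := h1.gcd_eq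
      rw [Nat.Coprime, this]; simp
    · have := h2.gcd_eq
      rw [Nat.Coprime, this]; exact hk
  obtain ⟨τ, hτ⟩ := CfsgLib.GalCliff.exists_gal_pow hk'
  have hτG : ∀ ζ : ℂ, ζ ^ Nat.card G = 1 → τ ζ = ζ := by
    intro ζ hζ
    have h3 : ζ ^ Nat.card Γ = 1 := by rw [hcardΓ, pow_mul, hζ, one_pow]
    rw [hτ ζ h3]
    have h4 : orderOf ζ ∣ Nat.card G := orderOf_dvd_of_pow_eq_one hζ
    conv_rhs => rw [← pow_one ζ]
    have h5 : ζ ≠ 0 := by
      rintro rfl
      rw [zero_pow Nat.card_pos.ne'] at hζ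
      exact zero_ne_one hζ
    have h7 : (Units.mk0 ζ h5) ^ k' = (Units.mk0 ζ h5) ^ 1 := by
      rw [pow_eq_pow_iff_modEq]
      apply h1.of_dvd
      rw [← orderOf_units]
      exact h4
    have h8 := congrArg (fun u : ℂˣ => (u : ℂ)) h7
    simpa using h8
  have h3 : A (⟨a, ha⟩ ^ k) = A (⟨a, ha⟩ ^ k') := by
    congr 1
    rw [pow_eq_pow_iff_modEq]
    exact (h2.of_dvd ((orderOf_dvd_natCard (⟨a, ha⟩ : S')).trans hcardSS)).symm
  have h4 : A (⟨a, ha⟩ ^ k') = τ (A ⟨a, ha⟩) := CfsgLib.GalCliff.char_gal_pow hτ (hcardSS.trans hcardS) hAc _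
  have h5 : τ (A ⟨a, ha⟩) = A ⟨a, ha⟩ := by
    simp only [hA]
    unfold mult
    rw [map_mul, map_inv₀, map_natCast, map_sum]
    congr 1
    refine Finset.sum_congr rfl fun c _ => ?_
    rw [map_mul, canon_gal hcop htop hχ hχh hext hdet τ hτG]
    congr 1
    have h6 := CfsgLib.GalCliff.char_gal_pow (σ := τ) (n := Nat.card G) (k := 1) (fun ζ hζ => by rw [hτG ζ hζ, pow_one])
      (Subgroup.card_dvd_of_le hCG) (isCharacter_conj (irr_isCharacter hβ)) c
    rw [pow_one] at h6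
    exact h6.symm
  have h6 : A (⟨a, ha⟩ ^ k) = σ (A ⟨a, ha⟩) := CfsgLib.GalCliff.char_gal_pow hk2 hcardSS hAc _
  rw [← h6, h3, h4, h5]

include hcop htop hχ hχh hext hdet in
/-- the correspondent at an element `x` of `S` -/
theorem exists_beta' (x : Γ) (hx : x ∈ S) (C : Subgroup Γ) [Fintype C]
    (hC : C = G ⊓ Subgroup.centralizer ({x} : Set Γ)) :
    ∃ (β : IrrCharacter C) (ε : ℤ), (ε = 1 ∨ ε = -1) ∧ ∀ c : C, χh (c * x) = ε * (β : C → ℂ) c := by
  classical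
  have hcx : (Nat.card G).Coprime (orderOf x) := by
    apply Nat.Coprime.coprime_dvd_right _ hcop
    have := orderOf_dvd_natCard (⟨x, hx⟩ : S)
    rwa [Subgroup.orderOf_mk] at this
  have hCG : C ≤ G := by rw [hC]; exact inf_le_left
  have hCx' : ∀ c ∈ C, c * x = x * c := fun c hc => by
    have : c ∈ G ⊓ Subgroup.centralizer ({x} : Set Γ) := by rw [← hC]; exact hc
    exact Subgroup.mem_centralizer_singleton_iff.mp this.2
  have hcomm : ∀ c ∈ C, ∀ s ∈ zpowers x, c * s = s * c := by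
    rintro c hc _ ⟨n, rfl⟩
    exact ((show Commute c x from hCx' c hc).zpow_right n)
  choose z hz using fun β : IrrCharacter C => mult_int' hcop htop hχ hχh hext hdet C (zpowers x) hCG
    ((zpowers_le).2 hx) hcomm β.2 x (mem_zpowers x)
  have h1 := norm_one hχ hχh hext x hcx C hC
  have h2 : ∑ β : IrrCharacter C, z β ^ 2 = 1 := by
    have h3 : ((∑ β : IrrCharacter C, z β ^ 2 : ℤ) : ℂ) = 1 := by
      rw [← h1]
      push_cast
      refine Finset.sum_congr rfl fun β _ => ?_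
      rw [hz, map_intCast]; ring
    exact_mod_cast h3
  obtain ⟨β, hβ⟩ : ∃ β, z β ≠ 0 := by
    by_contra hcon
    push Not at hcon
    simp [hcon] at h2
  have h3 : z β ^ 2 + ∑ γ ∈ Finset.univ.erase β, z γ ^ 2 = 1 := by
    rw [Finset.add_sum_erase _ (fun γ => z γ ^ 2) (Finset.mem_univ β), h2]
  have h4 : 1 ≤ z β ^ 2 := by
    have : 0 < z β ^ 2 := by positivity
    omega
  have h5 : 0 ≤ ∑ γ ∈ Finset.univ.erase β, z γ ^ 2 := Finset.sum_nonneg fun j _ => sq_nonneg _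
  have h6 : ∑ γ ∈ Finset.univ.erase β, z γ ^ 2 = 0 := by omega
  have h7 := (Finset.sum_eq_zero_iff_of_nonneg fun j _ => sq_nonneg (z j)).mp h6
  have h8 : ∀ γ, γ ≠ β → z γ = 0 := fun γ hγ => pow_eq_zero_iff two_ne_zero |>.mp (h7 γ (Finset.mem_erase.mpr ⟨hγ, Finset.mem_univ _⟩))
  have h9 : z β = 1 ∨ z β = -1 := by
    have h10 : z β ^ 2 = 1 := by omega
    have h11 : (z β - 1) * (z β + 1) = 0 := by linear_combination h10
    rcases mul_eq_zero.mp h11 with h | h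
    · left; omega
    · right; omega
  have hCx : ∀ c : C, (c : Γ) * x = x * c := fun c => hCx' c c.2
  have hcf : IsClassFunction C (fun c : C => χh (c * x)) := by
    intro c d
    have h1 := irr_classFun hχh ((c : Γ) * x) d
    have h2 : ((d * c * d⁻¹ : C) : Γ) * x = (d : Γ) * ((c : Γ) * x) * (d : Γ)⁻¹ := by
      show (d : Γ) * c * (d : Γ)⁻¹ * x = _
      have h3 : (d : Γ)⁻¹ * x = x * (d : Γ)⁻¹ := hCx d⁻¹
      rw [mul_assoc _ (d : Γ)⁻¹ x, h3]; group
    show χh (((d * c * d⁻¹ : C) : Γ) * x) = χh ((c : Γ) * x)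
    rw [h2]; exact h1
  refine ⟨β, z β, h9, fun c => ?_⟩
  have h10 := classFun_expand_apply hcf c
  rw [h10, Finset.sum_eq_single β]
  · have : classInner (fun c : C => χh (c * x)) (β : C → ℂ) = z β := hz β
    rw [this]
  · intro γ _ hγ
    have : classInner (fun c : C => χh (c * x)) (γ : C → ℂ) = z γ := hz γ
    rw [this, h8 γ hγ, Int.cast_zero, zero_mul]
  · intro h; exact absurd (Finset.mem_univ _) h

end Beta

end CfsgLib.EC11
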