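import Mathlib
import Cfsg.Agent.EqBase
import Cfsg.Agent.LibEC11h
import Cfsg.Agent.LibCharNorm

/-! Extremely closed abelian `p`-subgroups acting on `p'`-groups: invariant characters (seat helper11). -/

set_option autoImplicit false
set_option linter.all false

namespace CfsgLib.EC11

open Subgroup Cfsg CfsgLib.LE11Syl CfsgLib.CharBasic CfsgLib.Extend
open scoped Pointwise ComplexConjugate

universe u

section Scalar
variable {L : Type u} [Group L] [Finite L] {χ : L → ℂ}

theorem scalar_pow (hχ : IsIrrCharacter L χ) {x : L} (hx : ‖χ x‖ = (χ 1).re) (n : ℕ) :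
    χ (x ^ n) = (χ x / χ 1) ^ n * χ 1 := by
  have h1 := CfsgLib.CharInt.irr_one_ne_zero hχ
  induction n with
  | zero => rw [pow_zero, pow_zero, one_mul]
  | succ n ih =>
    rw [pow_succ', char_mul_of_scalar (irr_isCharacter hχ) h1 hx, ih, pow_succ', mul_assoc]

theorem scalar_closure (hχ : IsIrrCharacter L χ) {H : Subgroup L} (hH : ∀ x ∈ H, ‖χ x‖ = (χ 1).re) {r : L}
    (hr : r ∈ normalClosure (H : Set L)) (hcop : (orderOf r).Coprime (Nat.card H)) : χ r = χ 1 := by
  letI : Fintype L := Fintype.ofFinite L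
  have h1 := CfsgLib.CharInt.irr_one_ne_zero hχ
  have hc := irr_isCharacter hχ
  obtain ⟨Z, hZn, hZm⟩ := CfsgLib.CharNorm.exists_center hc
  let M : Subgroup L :=
    { carrier := {x | x ∈ Z ∧ (χ x / χ 1) ^ Nat.card H = 1}
      mul_mem' := by
        rintro a b ⟨ha1, ha2⟩ ⟨hb1, hb2⟩
        refine ⟨Z.mul_mem ha1 hb1, ?_⟩
        rw [char_mul_of_scalar hc h1 ((hZm a).1 ha1), mul_div_assoc, mul_pow, ha2, hb2, one_mul]
      one_mem' := ⟨Z.one_mem, by rw [div_self h1, one_pow]⟩
      inv_mem' := by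
        rintro a ⟨ha1, ha2⟩
        refine ⟨Z.inv_mem ha1, ?_⟩
        have h2 := char_mul_of_scalar hc h1 ((hZm a).1 ha1) a⁻¹
        rw [mul_inv_cancel] at h2
        have h3 : (χ a / χ 1) * (χ a⁻¹ / χ 1) = 1 := by
          rw [← mul_div_assoc, ← h2, div_self h1]
        have h4 : (χ a / χ 1) ^ Nat.card H * (χ a⁻¹ / χ 1) ^ Nat.card H = 1 := by
          rw [← mul_pow, h3, one_pow]
        rwa [ha2, one_mul] at h4 }
  haveI : M.Normal := ⟨by
    rintro n ⟨hn1, hn2⟩ g
    refine ⟨hZn.conj_mem n hn1 g, ?_⟩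
    rw [irr_classFun hχ n g]
    exact hn2⟩
  have hHM : (H : Set L) ⊆ M := by
    intro x hx
    refine ⟨(hZm x).2 (hH x hx), ?_⟩
    have h2 := scalar_pow hχ (hH x hx) (Nat.card H)
    have h3 : x ^ Nat.card H = 1 := by
      have h4 : (⟨x, hx⟩ : H) ^ Nat.card H = 1 := pow_card_eq_one'
      exact congrArg Subtype.val h4
    rw [h3] at h2
    have h5 : ((χ x / χ 1) ^ Nat.card H - 1) * χ 1 = 0 := by
      rw [sub_mul, ← h2, one_mul, sub_self]
    rcases mul_eq_zero.1 h5 with h | h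
    · exact sub_eq_zero.1 h
    · exact absurd h h1
  have hrM : r ∈ M := (normalClosure_le_normal hHM) hr
  have h2 := scalar_pow hχ ((hZm r).1 hrM.1) (orderOf r)
  rw [pow_orderOf_eq_one] at h2
  have h3 : (χ r / χ 1) ^ orderOf r = 1 := by
    have h5 : ((χ r / χ 1) ^ orderOf r - 1) * χ 1 = 0 := by
      rw [sub_mul, ← h2, one_mul, sub_self]
    rcases mul_eq_zero.1 h5 with h | h
    · exact sub_eq_zero.1 h
    · exact absurd h h1
  have h4 : (χ r / χ 1) ^ (Nat.gcd (orderOf r) (Nat.card H)) = 1 := pow_gcd_eq_one.2 ⟨h3, hrM.2⟩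
  rw [hcop, pow_one, div_eq_one_iff_eq h1] at h4
  exact h4

end Scalar

/-- the retraction onto a complement -/
theorem exists_retr {L : Type u} [Group L] [Finite L] {p : ℕ} [hp : Fact p.Prime] {R H : Subgroup L} [hR : R.Normal]
    (hRp : (Nat.card R).Coprime p) (htop : R ⊔ H = ⊤) (hH : IsPGroup p H) :
    ∃ F : L →* L, (∀ g, F g ∈ H) ∧ (∀ h ∈ H, F h = h) ∧ (∀ g, F g = 1 ↔ g ∈ R) := by
  have hcop : (Nat.card R).Coprime (Nat.card H) := by
    obtain ⟨n, hn⟩ := hH.exists_card_eq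
    rw [hn]; exact hRp.pow_right n
  have hd : Disjoint R H := disjoint_of_coprime_natCard hcop
  have hc : IsComplement' R H := by
    apply isComplement'_of_disjoint_and_mul_eq_univ hd
    rw [← Subgroup.normal_mul, htop]
    rfl
  refine ⟨H.subtype.comp (hc.symm.QuotientMulEquiv.toMonoidHom.comp (QuotientGroup.mk' R)), ?_, ?_, ?_⟩
  · intro g
    exact (hc.symm.QuotientMulEquiv (QuotientGroup.mk' R g)).2
  · intro h hh
    have h1 : hc.symm.QuotientMulEquiv (QuotientGroup.mk' R h) = (⟨h, hh⟩ : H) := by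
      rw [← MulEquiv.eq_symm_apply]
      rfl
    change ((hc.symm.QuotientMulEquiv (QuotientGroup.mk' R h) : H) : L) = h
    rw [h1]
  · intro g
    change ((hc.symm.QuotientMulEquiv (QuotientGroup.mk' R g) : H) : L) = 1 ↔ g ∈ R
    rw [OneMemClass.coe_eq_one, MulEquiv.map_eq_one_iff]
    exact QuotientGroup.eq_one_iff g

/-- invariant characters of a `p'`-group acted on by an extremely closed abelian `p`-group -/
theorem T_aux {p : ℕ} [hp : Fact p.Prime] (hp2 : p ≠ 2) : ∀ (n : ℕ) (L : Type u) [Group L] [Finite L] (R H : Subgroup L) [hR : R.Normal],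
    Nat.card L = n → (Nat.card R).Coprime p → R ⊔ H = ⊤ → EC p H → ∀ θ : R → ℂ, IsIrrCharacter R θ → Inv R θ →
    ∀ r : R, (r : L) ∈ normalClosure (H : Set L) → θ r = θ 1 := by
  intro n
  induction n using Nat.strong_induction_on with
  | _ n ih =>
  intro L _ _ R H hR hn hRp htop hec θ hθ hinv r hr
  classical
  letI : Fintype L := Fintype.ofFinite L
  letI : Fintype R := Fintype.ofFinite R
  have hcop : (Nat.card R).Coprime (Nat.card H) := by
    obtain ⟨n, hn⟩ := hec.pg.exists_card_eq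
    rw [hn]; exact hRp.pow_right n
  obtain ⟨F, hF1, hF2, hF3⟩ := exists_retr hRp htop hec.pg
  have hRmem : ∀ r : L, ¬ p ∣ orderOf r → r ∈ R := by
    intro r hr
    rw [← hF3]
    obtain ⟨k, hk⟩ := IsPGroup.iff_orderOf.1 hec.pg ⟨F r, hF1 r⟩
    rw [← Subgroup.orderOf_coe] at hk
    change orderOf (F r) = p ^ k at hk
    have h3 : orderOf (F r) ∣ orderOf r := orderOf_map_dvd F r
    have h4 : k = 0 := by
      by_contra hk0
      apply hr
      rw [hk] at h3
      exact (dvd_pow_self p hk0).trans h3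
    rwa [h4, pow_zero, orderOf_eq_one_iff] at hk
  have hRord : ∀ r ∈ R, ¬ p ∣ orderOf r := by
    intro r hr hd
    have h1 : orderOf r ∣ Nat.card R := Subgroup.orderOf_dvd_natCard _ hr
    exact hp.out.one_lt.ne' (Nat.eq_one_of_dvd_coprimes hRp (hd.trans h1) dvd_rfl)
  obtain ⟨χ, hχ, hext, hdet⟩ := CfsgLib.CycCorr.canon_exists hcop htop hθ hinv
  have hχ1 := CfsgLib.CharInt.irr_one_ne_zero hχ
  have hχc := irr_isCharacter hχ
  -- the values on `K_g`
  have hA : ∀ g v : L, v ∈ (H ⊔ MulAut.conj g • H : Subgroup L) → F v ∉ center L → χ v = χ (F v) ∧ χ (F v) ≠ 0 := by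
    intro g v hv hFv
    obtain ⟨K, hK⟩ : ∃ K, K = (H ⊔ MulAut.conj g • H : Subgroup L) := ⟨_, rfl⟩
    rw [← hK] at hv
    have hfr : Ret p K H (F.comp K.subtype) := by
      refine ⟨by rw [hK]; exact le_sup_left, fun k => hF1 _, fun h hh => hF2 h hh, fun k hk => ?_⟩
      exact hRord _ ((hF3 _).1 hk)
    have hnK : K ⊓ normalizer (H : Set L) ≤ H := by rw [hK]; exact (hec.norm g).le
    obtain ⟨w, r, k, hvw, hwr, hwp, hrp, hwk, hwH, hHC, hrC, hrN⟩ := ppart_mem hec hfr hnK hv
    change w = k * F v * k⁻¹ at hwk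
    have hwc : w ∉ center L := by
      intro hc
      apply hFv
      have h1 : F v = k⁻¹ * w * k := by rw [hwk]; group
      have h2 : k⁻¹ * w * k = w := by
        rw [mem_center_iff.1 hc k⁻¹, inv_mul_cancel_right]
      rw [h1, h2]; exact hc
    have hχw : χ w = χ (F v) := by rw [hwk]; exact irr_classFun hχ _ _
    obtain ⟨X, hX⟩ : ∃ X, X = centralizer ({w} : Set L) := ⟨_, rfl⟩
    have hXt : X ≠ ⊤ := by
      intro ht
      apply hwc
      rw [mem_center_iff]
      intro y
      have : y ∈ X := ht ▸ mem_top y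
      rw [hX, mem_centralizer_singleton_iff] at this
      exact this
    obtain ⟨H1, hH1⟩ : ∃ H1, H1 = MulAut.conj k • H := ⟨_, rfl⟩
    rw [← hH1] at hwH hHC
    rw [← hX] at hHC
    have hrX : r ∈ X := hX ▸ hrC
    have hrN' : (⟨r, hrX⟩ : X) ∈ normalClosure ((H1.subgroupOf X : Subgroup X) : Set X) := by
      subst hX; subst hH1; exact hrN
    have hcardH1 : Nat.card H1 = Nat.card H := by rw [hH1, card_conj]
    have hec1 : EC p H1 := hH1 ▸ hec.conj k
    have htop1 : R ⊔ H1 = ⊤ := by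
      have h1 : (MulAut.conj k • (R ⊔ H : Subgroup L)) = MulAut.conj k • (⊤ : Subgroup L) := by rw [htop]
      rw [Subgroup.smul_sup] at h1
      have h2 : MulAut.conj k • R = R := by
        rw [conj_smul_eq_iff, normalizer_eq_top]; trivial
      have h3 : MulAut.conj k • (⊤ : Subgroup L) = ⊤ := by
        rw [conj_smul_eq_iff, normalizer_eq_top]; trivial
      rw [h2, h3, ← hH1] at h1
      exact h1
    obtain ⟨D, hD⟩ : ∃ D, D = R ⊓ X := ⟨_, rfl⟩
    letI : Fintype D := Fintype.ofFinite D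
    obtain ⟨β, ε, hε, hβ⟩ := exists_beta' (S := H1) (by rw [hcardH1]; exact hcop) htop1 hθ hχ hext (by rw [hcardH1]; exact hdet)
      w hwH D (by rw [hD, hX])
    have hε0 : (ε : ℂ) ≠ 0 := by rcases hε with h | h <;> rw [h] <;> norm_num
    -- transport to `X`
    have he : ∀ r : R.subgroupOf X, ((r : X) : L) ∈ D := fun r => by rw [hD]; exact ⟨r.2, (r : X).2⟩
    have hD' : ∀ d : L, d ∈ D → d ∈ R ⊓ X := fun d hd => hD ▸ hd
    let e : R.subgroupOf X ≃* D :=
      { toFun := fun r => ⟨((r : X) : L), he r⟩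
        invFun := fun d => ⟨⟨d, (hD' d d.2).2⟩, (hD' d d.2).1⟩
        left_inv := fun r => rfl
        right_inv := fun d => rfl
        map_mul' := fun a b => rfl }
    have hβe : IsIrrCharacter (R.subgroupOf X) ((β : D → ℂ) ∘ e) := isIrrCharacter_comp_equiv β.2 e
    have hXw : ∀ y ∈ X, y * w = w * y := fun y hy => by
      rw [hX, mem_centralizer_singleton_iff] at hy; exact hy
    have hih := ih (Nat.card X) (hn ▸ CfsgLib.ZStar.card_lt hXt) X (R.subgroupOf X) (H1.subgroupOf X) rfl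
      (by
        apply Nat.Coprime.coprime_dvd_left _ hRp
        rw [Nat.card_congr e.toEquiv]
        exact Subgroup.card_dvd_of_le (by rw [hD]; exact inf_le_left))
      (by
        rw [eq_top_iff]
        rintro ⟨x, hx⟩ -
        have h1 : x ∈ R ⊔ H1 := by rw [htop1]; trivial
        obtain ⟨a, ha, b, hb, hab⟩ := (mem_sup_of_normal_left).1 h1
        have hbX : b ∈ X := hHC hb
        have haX : a ∈ X := by
          have : a = x * b⁻¹ := by rw [← hab]; group
          rw [this]; exact X.mul_mem hx (X.inv_mem hbX)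
        have h2 : (⟨x, hx⟩ : X) = ⟨a, haX⟩ * ⟨b, hbX⟩ := Subtype.ext hab.symm
        rw [h2]
        exact mul_mem ((le_sup_left : R.subgroupOf X ≤ _) ha) ((le_sup_right : H1.subgroupOf X ≤ _) hb))
      (hec1.subgroupOf hHC) _ hβe (by
        intro y d
        change (β : D → ℂ) (e _) = (β : D → ℂ) (e _)
        have h1 := hβ (e ⟨y * d * y⁻¹, Normal.conj_mem inferInstance (d : X) d.2 y⟩)
        have h2 := hβ (e d)
        have h3 : χ (((e ⟨y * d * y⁻¹, Normal.conj_mem inferInstance (d : X) d.2 y⟩ : D) : L) * w) = χ (((e d : D) : L) * w) := by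
          have h4 : (((e ⟨y * d * y⁻¹, Normal.conj_mem inferInstance (d : X) d.2 y⟩ : D) : L) * w) =
              (y : L) * (((e d : D) : L) * w) * (y : L)⁻¹ := by
            change (y : L) * ((d : X) : L) * (y : L)⁻¹ * w = (y : L) * (((d : X) : L) * w) * (y : L)⁻¹
            have h5 : (y : L)⁻¹ * w = w * (y : L)⁻¹ := hXw _ (X.inv_mem y.2)
            rw [mul_assoc _ (y : L)⁻¹ w, h5]; group
          rw [h4]; exact irr_classFun hχ _ _
        rw [h1, h2] at h3
        exact mul_left_cancel₀ hε0 h3)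
    have hrR : r ∈ R := hRmem r hrp
    have hβr := hih ⟨⟨r, hrX⟩, hrR⟩ hrN'
    change (β : D → ℂ) (e _) = (β : D → ℂ) (e 1) at hβr
    have h1 := hβ (e ⟨⟨r, hrX⟩, hrR⟩)
    have h2 := hβ (e 1)
    rw [hβr, ← h2] at h1
    change χ (r * w) = χ (1 * w) at h1
    rw [one_mul] at h1
    refine ⟨?_, ?_⟩
    · rw [← hχw, ← h1, ← hwr, ← hvw]
    rw [← hχw]
    rw [map_one] at h2
    change χ (1 * w) = _ at h2
    rw [one_mul] at h2
    rw [h2]
    exact mul_ne_zero hε0 (CfsgLib.CharInt.irr_one_ne_zero β.2)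
  have hB : ∀ x ∈ H, ∀ y ∈ H, x * y ∉ center L → χ x * χ y = χ 1 * χ (x * y) := by
    intro x hx y hy hxy
    have h1 := CfsgLib.BlockOrth.sum_conj_mul hχ y x
    have h2 : ∀ g : L, χ (g * x * g⁻¹ * y) = χ (x * y) := by
      intro g
      have h3 : F (g * x * g⁻¹ * y) = x * y := by
        rw [map_mul, map_mul, map_mul, map_inv, hF2 x hx, hF2 y hy, hec.ab _ (hF1 g) x hx, mul_inv_cancel_right]
      have h4 := (hA g (g * x * g⁻¹ * y) (mul_mem ((le_sup_right : MulAut.conj g • H ≤ _) (by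
        rw [mem_conj_smul]
        have : g⁻¹ * (g * x * g⁻¹) * g = x := by group
        rw [this]; exact hx)) ((le_sup_left : H ≤ _) hy)) (by rw [h3]; exact hxy)).1
      rw [h4, h3]
    rw [Finset.sum_congr rfl fun g _ => h2 g, Finset.sum_const, Finset.card_univ, nsmul_eq_mul, ← Nat.card_eq_fintype_card] at h1
    have h3 : (Nat.card L : ℂ) ≠ 0 := by exact_mod_cast Nat.card_pos.ne'
    field_simp at h1
    rw [← h1]; ring
  have hC : ∀ x ∈ H, x ∉ center L → ‖χ x‖ = (χ 1).re := by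
    intro x hx hxc
    have h1H : MulAut.conj (1 : L) • H = H := by rw [map_one, one_smul]
    have hx0 : χ x ≠ 0 := by
      have := (hA 1 x ((le_sup_left : H ≤ H ⊔ MulAut.conj (1 : L) • H) hx) (by rw [hF2 x hx]; exact hxc)).2
      rwa [hF2 x hx] at this
    have hx2 : x * x ∉ center L := by
      intro hc
      apply hxc
      obtain ⟨k, hk⟩ := IsPGroup.iff_orderOf.1 hec.pg ⟨x, hx⟩
      rw [← Subgroup.orderOf_coe] at hk
      change orderOf x = p ^ k at hk
      have hodd : Odd (p ^ k) := (hp.out.odd_of_ne_two hp2).pow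
      obtain ⟨m, hm⟩ := hodd
      have h3 : x = ((x * x) ^ (m + 1)) := by
        have h4 : x ^ (2 * m + 1) = 1 := by rw [← hm, ← hk, pow_orderOf_eq_one]
        calc x = x ^ (2 * m + 1) * x := by rw [h4, one_mul]
          _ = (x * x) ^ (m + 1) := by
            rw [← pow_succ, ← pow_two, ← pow_mul]
            congr 1
      rw [h3]
      exact pow_mem hc _
    have h1 := hB x hx x hx hx2
    have h2 := hB x⁻¹ (H.inv_mem hx) (x * x) (H.mul_mem hx hx) (by rw [inv_mul_cancel_left]; exact hxc)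
    rw [inv_mul_cancel_left, char_inv_eq_conj hχc] at h2
    have h3 : conj (χ x) * χ x = χ 1 * χ 1 := by
      apply mul_right_cancel₀ hx0
      calc conj (χ x) * χ x * χ x = conj (χ x) * (χ x * χ x) := by ring
        _ = χ 1 * (conj (χ x) * χ (x * x)) := by rw [h1]; ring
        _ = χ 1 * χ 1 * χ x := by rw [h2]; ring
    obtain ⟨d, hd0, hd⟩ := irr_one_nat hχ
    rw [hd] at h3 ⊢
    rw [mul_comm, Complex.mul_conj, Complex.normSq_eq_norm_sq] at h3
    have h4 : ‖χ x‖ ^ 2 = (d : ℝ) ^ 2 := by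
      have h5 : ((‖χ x‖ ^ 2 : ℝ) : ℂ) = (((d : ℝ) ^ 2 : ℝ) : ℂ) := by
        rw [h3]; push_cast; ring
      exact_mod_cast h5
    rw [Complex.natCast_re]
    exact (sq_eq_sq₀ (norm_nonneg _) (Nat.cast_nonneg d)).1 h4
  have hD : ∀ x ∈ H, ‖χ x‖ = (χ 1).re := by
    intro x hx
    by_cases hc : x ∈ center L
    · exact irr_center hχ hc
    · exact hC x hx hc
  have h1 : χ r = χ 1 := by
    apply scalar_closure hχ hD hr
    exact Nat.Coprime.coprime_dvd_left (Subgroup.orderOf_dvd_natCard _ r.2) hcop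
  rw [← hext, h1, ← hext]
  rfl

end CfsgLib.EC11
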