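import Mathlib
import Cfsg.Agent.EqBase
import Cfsg.Agent.LibEC11i
import Cfsg.Agent.LibEC11g
import Cfsg.Agent.LibGlaub2
import Cfsg.Agent.LibGlaubG

/-! Extremely closed abelian `p`-subgroups, `p` odd (seat helper11). -/

set_option autoImplicit false
set_option linter.all false

namespace CfsgLib.EC11

open Subgroup Cfsg CfsgLib.LE11Syl CfsgLib.CharBasic
open scoped Pointwise ComplexConjugate

universe u

theorem const_irr {R : Type u} [Group R] [Finite R] {χ : R → ℂ} (hχ : IsIrrCharacter R χ) (h : ∀ r, χ r = χ 1) :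
    ∀ r, χ r = 1 := by
  classical
  letI : Fintype R := Fintype.ofFinite R
  have h1 := irr_inner_self hχ
  rw [inner_self_eq] at h1
  have h2 : ((Nat.card R : ℝ)⁻¹ * ∑ g : R, ‖χ g‖ ^ 2 : ℝ) = 1 := by exact_mod_cast h1
  have h3 : ∑ g : R, ‖χ g‖ ^ 2 = Nat.card R * ‖χ 1‖ ^ 2 := by
    rw [Finset.sum_congr rfl (fun g _ => by rw [h g]), Finset.sum_const, Finset.card_univ, nsmul_eq_mul,
      Nat.card_eq_fintype_card]
  have h4 : (Nat.card R : ℝ) ≠ 0 := by exact_mod_cast Nat.card_pos.ne'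
  rw [h3, ← mul_assoc, inv_mul_cancel₀ h4, one_mul] at h2
  obtain ⟨d, hd0, hd⟩ := irr_one_nat hχ
  intro r
  rw [h r, hd]
  rw [hd, Complex.norm_natCast] at h2
  have h5 : d ^ 2 = 1 := by exact_mod_cast h2
  have h6 : d = 1 := by
    rcases Nat.pow_eq_one.1 h5 with h | h
    · exact h
    · omega
  rw [h6]; norm_num

theorem fixed_bot {L : Type u} [Group L] [Finite L] {p : ℕ} [hp : Fact p.Prime] (hp2 : p ≠ 2) {R H : Subgroup L} [hR : R.Normal]
    (hRp : (Nat.card R).Coprime p) (htop : R ⊔ H = ⊤) (hec : EC p H) (hnc : normalClosure (H : Set L) = ⊤) :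
    R ⊓ centralizer (H : Set L) = ⊥ := by
  classical
  letI : Fintype R := Fintype.ofFinite R
  have hnorm : ∀ s ∈ H, ∀ g ∈ R, s * g * s⁻¹ ∈ R := fun s _ g hg => hR.conj_mem g hg s
  have hcop : (Nat.card H).Coprime (Nat.card R) := by
    obtain ⟨n, hn⟩ := hec.pg.exists_card_eq
    rw [hn]; exact (hRp.pow_right n).symm
  have hsolv : Group.IsSolvable H := Group.isSolvable_of_comm fun a b => Subtype.ext (hec.ab a a.2 b b.2)
  have hcard := CfsgLib.Glaub2.card_invariant_irr (CfsgLib.GlaubG.conjHom R H hnorm) hcop hsolv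
  have hall : ∀ χ : {χ : IrrCharacter R // CfsgLib.Glaub.Inv (CfsgLib.GlaubG.conjHom R H hnorm) (χ : R → ℂ)}, ∀ r : R, (χ.1 : R → ℂ) r = 1 := by
    rintro ⟨χ, hχ⟩
    rw [CfsgLib.GlaubG.inv_iff] at hχ
    apply const_irr χ.2
    intro r
    apply T_aux hp2 _ L R H rfl hRp htop hec _ χ.2 _ r (by rw [hnc]; trivial)
    intro g n
    have h1 : g ∈ R ⊔ H := by rw [htop]; trivial
    obtain ⟨a, ha, b, hb, hab⟩ := (mem_sup_of_normal_left).1 h1
    have h2 := hχ b hb n ⟨b * n * b⁻¹, hR.conj_mem _ n.2 b⟩ rfl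
    rw [← h2]
    have h3 := irr_classFun χ.2 ⟨b * n * b⁻¹, hR.conj_mem _ n.2 b⟩ ⟨a, ha⟩
    rw [← h3]
    have h4 : (⟨g * n * g⁻¹, hR.conj_mem _ n.2 g⟩ : R) = ⟨a, ha⟩ * ⟨b * n * b⁻¹, hR.conj_mem _ n.2 b⟩ * ⟨a, ha⟩⁻¹ := by
      apply Subtype.ext
      change g * n * g⁻¹ = a * (b * n * b⁻¹) * a⁻¹
      rw [← hab]; group
    rw [h4]
  have hsub : Subsingleton {χ : IrrCharacter R // CfsgLib.Glaub.Inv (CfsgLib.GlaubG.conjHom R H hnorm) (χ : R → ℂ)} := by
    constructor
    intro a b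
    apply Subtype.ext
    apply Subtype.ext
    funext r
    rw [hall a r, hall b r]
  have h1 : Nat.card (ConjClasses (CfsgLib.Glaub.fix (CfsgLib.GlaubG.conjHom R H hnorm))) ≤ 1 := by
    rw [← hcard]
    exact Finite.card_le_one_iff_subsingleton.2 hsub
  have h2 : Subsingleton (ConjClasses (CfsgLib.Glaub.fix (CfsgLib.GlaubG.conjHom R H hnorm))) :=
    Finite.card_le_one_iff_subsingleton.1 h1
  have h3 : CfsgLib.Glaub.fix (CfsgLib.GlaubG.conjHom R H hnorm) = ⊥ := by
    rw [eq_bot_iff]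
    intro x hx
    have h4 : ConjClasses.mk (⟨x, hx⟩ : CfsgLib.Glaub.fix (CfsgLib.GlaubG.conjHom R H hnorm)) = ConjClasses.mk 1 := Subsingleton.elim _ _
    rw [ConjClasses.mk_eq_mk_iff_isConj, isConj_one_left] at h4
    rw [mem_bot]
    exact congrArg Subtype.val h4
  have h4 := CfsgLib.GlaubG.fix_eq R H hnorm _ rfl
  rw [h3] at h4
  rw [eq_bot_iff]
  intro x hx
  have h5 : (⟨x, hx.1⟩ : R) ∈ (R ⊓ centralizer (H : Set L)).subgroupOf R := hx
  rw [h4, mem_bot] at h5
  exact congrArg Subtype.val h5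

variable {G : Type u} [Group G] [Finite G] {p : ℕ} [hp : Fact p.Prime] {H : Subgroup G}

theorem normalClosure_inf (hp2 : p ≠ 2) (h : EC p H) : normalClosure (H : Set G) ⊓ normalizer (H : Set G) = H := by
  obtain ⟨L, hL⟩ : ∃ L, L = normalClosure (H : Set G) := ⟨_, rfl⟩
  haveI hLn : L.Normal := hL ▸ inferInstance
  obtain ⟨Q, hQ⟩ : ∃ Q, Q = pPrimeCore p G := ⟨_, rfl⟩
  haveI hQn : Q.Normal := hQ ▸ inferInstance
  have hQp : (Nat.card Q).Coprime p := by rw [hQ]; exact CfsgLib.Cores.pPrimeCore_coprime p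
  have hmain := main h
  rw [← hQ] at hmain
  have hHL : H ≤ L := by rw [hL]; exact le_normalClosure
  have hLQ : L ≤ Q ⊔ H := by
    rw [hL, sup_comm]
    exact normalClosure_le_normal (le_sup_left : H ≤ H ⊔ Q)
  rw [← hL]
  have hec : EC p (H.subgroupOf L) := h.subgroupOf hHL
  have hRp : (Nat.card (Q.subgroupOf L)).Coprime p := by
    apply Nat.Coprime.coprime_dvd_left _ hQp
    exact Subgroup.card_comap_dvd_of_injective Q L.subtype L.subtype_injective
  have htop : Q.subgroupOf L ⊔ H.subgroupOf L = ⊤ := by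
    rw [eq_top_iff]
    rintro ⟨x, hx⟩ -
    obtain ⟨a, ha, b, hb, hab⟩ := (mem_sup_of_normal_left).1 (hLQ hx)
    have hbX : b ∈ L := hHL hb
    have haX : a ∈ L := by
      have : a = x * b⁻¹ := by rw [← hab]; group
      rw [this]; exact L.mul_mem hx (L.inv_mem hbX)
    have h2 : (⟨x, hx⟩ : L) = ⟨a, haX⟩ * ⟨b, hbX⟩ := Subtype.ext hab.symm
    rw [h2]
    exact mul_mem ((le_sup_left : Q.subgroupOf L ≤ _) ha) ((le_sup_right : H.subgroupOf L ≤ _) hb)
  -- Sylow
  have hcop : (Nat.card (Q.subgroupOf L)).Coprime (Nat.card (H.subgroupOf L)) := by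
    obtain ⟨n, hn⟩ := hec.pg.exists_card_eq
    rw [hn]; exact hRp.pow_right n
  have hidx := CfsgLib.CycCorr.index_eq hcop htop
  have hidx2 : (H.subgroupOf L).index = Nat.card (Q.subgroupOf L) := by
    have h1 := Subgroup.card_mul_index (H.subgroupOf L)
    have h2 := Subgroup.card_mul_index (Q.subgroupOf L)
    rw [hidx, ← h1, mul_comm] at h2
    exact (Nat.eq_of_mul_eq_mul_left Nat.card_pos h2).symm
  have hsyl : IsSyl p H L := by
    refine ⟨hHL, h.pg, ?_⟩
    intro hd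
    change p ∣ (H.subgroupOf L).index at hd
    rw [hidx2] at hd
    exact hp.out.one_lt.ne' (Nat.eq_one_of_dvd_coprimes hRp hd dvd_rfl)
  have hnc : normalClosure ((H.subgroupOf L : Subgroup L) : Set L) = ⊤ := by
    obtain ⟨N, hN⟩ : ∃ N, N = (normalClosure ((H.subgroupOf L : Subgroup L) : Set L)).map L.subtype := ⟨_, rfl⟩
    have h1 : L ≤ N := by
      have h2 : normalClosure (H : Set G) ≤ N := by
        rw [normalClosure, closure_le]
        intro x hx
        rw [Group.mem_conjugatesOfSet_iff] at hx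
        obtain ⟨a, ha, hax⟩ := hx
        obtain ⟨g, rfl⟩ := isConj_iff.1 hax
        have h3 : MulAut.conj g • H ≤ L := by
          intro y hy
          rw [mem_conj_smul] at hy
          have h4 := hLn.conj_mem _ (hHL hy) g
          have h5 : g * (g⁻¹ * y * g) * g⁻¹ = y := by group
          rwa [h5] at h4
        obtain ⟨l, hl, hl2⟩ := hsyl.conj_le h3 (IsPGroup_conj h.pg g)
        have h4 : l * (g * a * g⁻¹) * l⁻¹ ∈ H := by
          apply hl2
          rw [mem_conj_smul, mem_conj_smul]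
          have : g⁻¹ * (l⁻¹ * (l * (g * a * g⁻¹) * l⁻¹) * l) * g = a := by group
          rw [this]; exact ha
        have h5 := (normalClosure_normal (s := ((H.subgroupOf L : Subgroup L) : Set L))).conj_mem
          ⟨l * (g * a * g⁻¹) * l⁻¹, hHL h4⟩ (subset_normalClosure h4) ⟨l⁻¹, L.inv_mem hl⟩
        change g * a * g⁻¹ ∈ N
        rw [hN]
        refine ⟨_, h5, ?_⟩
        change l⁻¹ * (l * (g * a * g⁻¹) * l⁻¹) * l⁻¹⁻¹ = g * a * g⁻¹
        group
      rw [hL]; exact h2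
    rw [eq_top_iff]
    rintro ⟨x, hx⟩ -
    have h2 := h1 hx
    rw [hN] at h2
    obtain ⟨y, hy, hyx⟩ := h2
    have : y = ⟨x, hx⟩ := Subtype.ext hyx
    rw [← this]; exact hy
  have hfix := fixed_bot hp2 hRp htop hec hnc
  apply le_antisymm _ (le_inf hHL le_normalizer)
  rintro n ⟨hnL, hnN⟩
  obtain ⟨a, ha, b, hb, hab⟩ := (mem_sup_of_normal_left).1 (hLQ hnL)
  have haL : a ∈ L := by
    have : a = n * b⁻¹ := by rw [← hab]; group
    rw [this]; exact L.mul_mem hnL (L.inv_mem (hHL hb))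
  have haN : a ∈ normalizer (H : Set G) := by
    have : a = n * b⁻¹ := by rw [← hab]; group
    rw [this]; exact mul_mem hnN (inv_mem (le_normalizer hb))
  have hQH : ∀ x, x ∈ Q → x ∈ H → x = 1 := by
    intro x h1 h2
    have hd : Disjoint Q H := by
      apply disjoint_of_coprime_natCard
      obtain ⟨n, hn⟩ := h.pg.exists_card_eq
      rw [hn]; exact hQp.pow_right n
    exact (Subgroup.disjoint_def.1 hd) h1 h2
  have h1 : (⟨a, haL⟩ : L) ∈ Q.subgroupOf L ⊓ centralizer ((H.subgroupOf L : Subgroup L) : Set L) := by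
    refine ⟨ha, ?_⟩
    change _ ∈ centralizer ((H.subgroupOf L : Subgroup L) : Set L)
    rw [mem_centralizer_iff]
    intro y hy
    apply Subtype.ext
    change (y : G) * a = a * y
    have hy' : (y : G) ∈ H := hy
    have h2 : a * y * a⁻¹ * (y : G)⁻¹ = 1 := by
      apply hQH
      · have : a * y * a⁻¹ * (y : G)⁻¹ = a * (y * a⁻¹ * (y : G)⁻¹) := by group
        rw [this]
        exact Q.mul_mem ha (hQn.conj_mem _ (Q.inv_mem ha) y)
      · exact H.mul_mem ((mem_normalizer_iff.1 haN y).1 hy') (H.inv_mem hy')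
    have h3 : a * y = y * a := by
      calc a * y = a * y * a⁻¹ * (y : G)⁻¹ * (y * a) := by group
        _ = _ := by rw [h2, one_mul]
    exact h3.symm
  rw [hfix, mem_bot] at h1
  have h2 : a = 1 := congrArg Subtype.val h1
  rw [← hab, h2, one_mul]; exact hb

end CfsgLib.EC11
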