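import Mathlib
import Cfsg.Prelude
import Cfsg.Agent.S0713

set_option autoImplicit false

/-!
Existence of Hall `π`-subgroups in all finite groups (helper4).
-/

namespace CfsgLib.EPi

open Cfsg MulAction
open scoped Pointwise

/-- the shifting homomorphism -/
def sh (a p c : ℕ) : (Fin a → Multiplicative (ZMod p)) →* Equiv.Perm ((Fin a × ZMod p) ⊕ Fin c) where
  toFun f := Equiv.sumCongr ⟨fun x => (x.1, x.2 + (f x.1).toAdd), fun x => (x.1, x.2 - (f x.1).toAdd),
    fun x => by simp, fun x => by simp⟩ (Equiv.refl _)
  map_one' := by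
    ext x
    rcases x with ⟨i, z⟩ | x <;> simp
  map_mul' f g := by
    ext x
    rcases x with ⟨i, z⟩ | x
    · simp only [Equiv.Perm.mul_apply, Equiv.sumCongr_apply, Sum.map_inl, Equiv.coe_fn_mk, Pi.mul_apply, toAdd_mul]
      congr 2
      ring
    · simp

theorem sh_inl (a p c : ℕ) (f : Fin a → Multiplicative (ZMod p)) (i : Fin a) (z : ZMod p) :
    sh a p c f (Sum.inl (i, z)) = Sum.inl (i, z + (f i).toAdd) := rfl

theorem sh_inr (a p c : ℕ) (f : Fin a → Multiplicative (ZMod p)) (x : Fin c) :
    sh a p c f (Sum.inr x) = Sum.inr x := rfl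

/-- the set acted on -/
abbrev Om (a p c : ℕ) : Type := (Fin a × ZMod p) ⊕ Fin c

/-- the main contradiction -/
theorem main {π : Set ℕ} {p q r : ℕ} (hp : p.Prime) (hq : q.Prime) (hr : r.Prime) (hpq : p < q) (hpπ : p ∈ π) (hqπ : q ∈ π)
    (hrπ : r ∉ π) (a c k : ℕ) (hc : c < p) (hn : a * p + c = q ^ k) (hn1 : p + 3 ≤ q ^ k) (hn2 : 5 ≤ q ^ k) (hn3 : r ≤ q ^ k)
    (H : Subgroup (Equiv.Perm (Om a p c))) (hH : IsPiHall π H) : False := by
  classical
  haveI : Fact p.Prime := ⟨hp⟩
  haveI : Fact q.Prime := ⟨hq⟩
  haveI : NeZero p := ⟨hp.ne_zero⟩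
  haveI : NeZero (q ^ k) := ⟨(pow_pos hq.pos k).ne'⟩
  have hcard : Fintype.card (Om a p c) = q ^ k := by
    rw [Fintype.card_sum, Fintype.card_prod, Fintype.card_fin, Fintype.card_fin, ZMod.card, hn]
  -- conjugating `s`-subgroups into `H`
  have hsyl : ∀ s : ℕ, s.Prime → s ∈ π → ∀ T : Subgroup (Equiv.Perm (Om a p c)), IsPGroup s T →
      ∃ g : Equiv.Perm (Om a p c), ∀ t ∈ T, g * t * g⁻¹ ∈ H := by
    intro s hs hsπ T hT
    haveI : Fact s.Prime := ⟨hs⟩
    obtain ⟨S⟩ : Nonempty (Sylow s H) := inferInstance
    have h1 : IsPGroup s ((S : Subgroup H).map H.subtype) := S.isPGroup'.map _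
    have h2 : ¬ s ∣ ((S : Subgroup H).map H.subtype).index := by
      rw [← Subgroup.relIndex_mul_index (Subgroup.map_subtype_le (S : Subgroup H)), Subgroup.relIndex, Subgroup.subgroupOf,
        Subgroup.comap_map_eq_self_of_injective H.subtype_injective]
      intro hd
      rcases (Nat.Prime.dvd_mul hs).1 hd with h3 | h3
      · exact S.not_dvd_index h3
      · exact hH.2 s hs hsπ h3
    obtain ⟨T', hT'⟩ := hT.exists_le_sylow
    obtain ⟨g, hg⟩ := MulAction.exists_smul_eq (Equiv.Perm (Om a p c)) T' (h1.toSylow h2)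
    refine ⟨g, fun t ht => ?_⟩
    have h3 : g * t * g⁻¹ ∈ (h1.toSylow h2) := by
      rw [← hg, ← MulAut.conj_apply]
      exact Subgroup.smul_mem_pointwise_smul _ _ _ (hT' ht)
    exact Subgroup.map_subtype_le _ h3
  -- the elementary abelian group
  have hE : IsPGroup p (sh a p c).range := by
    have h1 : IsPGroup p (Fin a → Multiplicative (ZMod p)) := by
      apply IsPGroup.of_card (n := a)
      rw [Nat.card_eq_fintype_card, Fintype.card_pi]
      simp [ZMod.card]
    exact h1.of_surjective (sh a p c).rangeRestrict (sh a p c).rangeRestrict_surjective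
  obtain ⟨g, hg⟩ := hsyl p hp hpπ _ hE
  -- the transitive `q`-group
  have e : ZMod (q ^ k) ≃ (Om a p c) := Fintype.equivOfCardEq (by rw [ZMod.card, hcard])
  set φ : Multiplicative (ZMod (q ^ k)) →* Equiv.Perm (Om a p c) :=
    { toFun := fun t => (e.symm.trans (Equiv.addLeft t.toAdd)).trans e
      map_one' := by ext x; simp
      map_mul' := by
        intro s t
        ext x
        simp only [Equiv.Perm.mul_apply, Equiv.trans_apply, Equiv.coe_addLeft, Equiv.symm_apply_apply, toAdd_mul]
        congr 1
        ring } with hφ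
  have hφa : ∀ (t : Multiplicative (ZMod (q ^ k))) (x : (Om a p c)), φ t x = e (t.toAdd + e.symm x) := fun t x => rfl
  have hT : IsPGroup q φ.range := by
    have h1 : IsPGroup q (Multiplicative (ZMod (q ^ k))) := by
      apply IsPGroup.of_card (n := k)
      rw [Nat.card_eq_fintype_card, Fintype.card_multiplicative, ZMod.card]
    exact h1.of_surjective φ.rangeRestrict φ.rangeRestrict_surjective
  obtain ⟨g', hg'⟩ := hsyl q hq hqπ _ hT
  haveI htrans : IsPretransitive H (Om a p c) := by
    constructor
    intro x y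
    set t : Multiplicative (ZMod (q ^ k)) := Multiplicative.ofAdd (e.symm (g'⁻¹ y) - e.symm (g'⁻¹ x)) with ht
    refine ⟨⟨_, hg' (φ t) ⟨t, rfl⟩⟩, ?_⟩
    show (g' * φ t * g'⁻¹) x = y
    rw [Equiv.Perm.mul_apply, Equiv.Perm.mul_apply, hφa, ht, toAdd_ofAdd, sub_add_cancel, Equiv.apply_symm_apply]
    simp
  -- the `p`-cycles
  have ha : 0 < a := by
    rcases Nat.eq_zero_or_pos a with h0 | h0
    · exfalso
      rw [h0, zero_mul, zero_add] at hn
      omega
    · exact h0
  set τ : Fin a → Equiv.Perm (Om a p c) := fun i => sh a p c (Pi.mulSingle i (Multiplicative.ofAdd 1)) with hτ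
  have hτpow : ∀ (i : Fin a) (z w : ZMod p), ∃ m : ℕ, (τ i ^ m) (Sum.inl (i, z)) = Sum.inl (i, w) := by
    intro i z w
    refine ⟨(w - z).val, ?_⟩
    have h1 : ∀ m : ℕ, (τ i ^ m) (Sum.inl (i, z)) = Sum.inl (i, z + m) := by
      intro m
      induction m with
      | zero => simp
      | succ m ih =>
        rw [pow_succ', Equiv.Perm.mul_apply, ih, hτ]
        simp only
        rw [sh_inl, Pi.mulSingle_eq_same, toAdd_ofAdd]
        push_cast
        rw [add_assoc]
    rw [h1, ZMod.natCast_val, ZMod.cast_id', id_eq]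
    congr 2
    ring
  have hτfix : ∀ (i j : Fin a) (z : ZMod p), j ≠ i → τ i (Sum.inl (j, z)) = Sum.inl (j, z) := by
    intro i j z hji
    rw [hτ]
    simp only
    rw [sh_inl, Pi.mulSingle_eq_of_ne hji, toAdd_one, add_zero]
  have hτmv : ∀ (i : Fin a) (z : ZMod p), τ i (Sum.inl (i, z)) = Sum.inl (i, z + 1) := by
    intro i z
    rw [hτ]
    simp only
    rw [sh_inl, Pi.mulSingle_eq_same, toAdd_ofAdd]
  have hτH : ∀ i, g * τ i * g⁻¹ ∈ H := fun i => hg _ ⟨_, rfl⟩
  -- blocks
  haveI hprim : IsPreprimitive H (Om a p c) := by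
    constructor
    intro B hB
    by_cases hsub : B.Subsingleton
    · exact Or.inl hsub
    right
    rw [Set.not_subsingleton_iff] at hsub
    have hBne : B.Nonempty := hsub.nonempty
    have hcardB := hB.ncard_block_mul_ncard_orbit_eq hBne
    rw [Nat.card_eq_fintype_card, hcard] at hcardB
    -- each block of size at least two is closed under the shifts
    have hclosed : ∀ h : H, ∀ i : Fin a, ∀ z w : ZMod p, g (Sum.inl (i, z)) ∈ h • B → g (Sum.inl (i, w)) ∈ h • B := by
      intro h i z w hz
      have hB' : IsBlock H (h • B) := hB.translate h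
      set t : H := ⟨_, hτH i⟩ with ht
      have htact : ∀ x : (Om a p c), t • (g x) = g (τ i x) := by
        intro x
        show (g * τ i * g⁻¹) (g x) = _
        simp [Equiv.Perm.mul_apply]
      have htpow : ∀ (m : ℕ) (x : (Om a p c)), t ^ m • (g x) = g ((τ i ^ m) x) := by
        intro m
        induction m with
        | zero => intro x; simp
        | succ m ih =>
          intro x
          rw [pow_succ', mul_smul, ih, htact, pow_succ', Equiv.Perm.mul_apply]
      have hstab : t • (h • B) = h • B := by
        by_contra hne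
        -- a second element of the block
        have hnt : (h • B).Nontrivial := by
          obtain ⟨x, hx, y, hy, hxy⟩ := hsub
          exact ⟨h • x, Set.smul_mem_smul_set hx, h • y, Set.smul_mem_smul_set hy, fun heq => hxy (smul_left_cancel h heq)⟩
        obtain ⟨y, hy, hyne⟩ := hnt.exists_ne (g (Sum.inl (i, z)))
        -- `y` must be moved by `t`
        have hymv : t • y ≠ y := by
          intro heq
          apply hne
          have h1 : y ∈ t • (h • B) := by
            rw [← heq]; exact Set.smul_mem_smul_set hy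
          exact (hB'.smul_eq_of_mem hy (by rw [heq]; exact hy))
        obtain ⟨x, hx⟩ : ∃ x, y = g x := ⟨g⁻¹ y, by simp⟩
        rw [hx] at hymv hyne hy
        have hxi : ∃ u, x = Sum.inl (i, u) := by
          rcases x with ⟨j, u⟩ | x
          · by_cases hji : j = i
            · exact ⟨u, by rw [hji]⟩
            · exfalso
              apply hymv
              rw [htact, hτfix i j u hji]
          · exfalso
            apply hymv
            rw [htact, hτ]
            rfl
        obtain ⟨u, rfl⟩ := hxi
        obtain ⟨m, hm⟩ := hτpow i z u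
        have h2 : t ^ m • (g (Sum.inl (i, z))) = g (Sum.inl (i, u)) := by rw [htpow, hm]
        have h3 : t ^ m • (h • B) = h • B := hB'.smul_eq_of_mem hz (by rw [h2]; exact hy)
        -- `m` is prime to `p`
        have htp : t ^ p = 1 := by
          apply Subtype.ext
          show (g * τ i * g⁻¹) ^ p = 1
          rw [conj_pow]
          have h4 : τ i ^ p = 1 := by
            rw [hτ]
            simp only
            rw [← map_pow, ← Pi.mulSingle_pow, ← ofAdd_nsmul]
            simp
          rw [h4, mul_one, mul_inv_cancel]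
        have hmp : m.Coprime p := by
          rw [Nat.coprime_comm, Nat.Prime.coprime_iff_not_dvd hp]
          rintro ⟨l, rfl⟩
          rw [pow_mul, htp, one_pow, one_smul] at h2
          exact hyne h2.symm
        apply hne
        obtain ⟨l, -, hl⟩ := Nat.exists_mul_mod_eq_one_of_coprime hmp hp.one_lt
        have h4 : ∀ l : ℕ, (t ^ m) ^ l • (h • B) = h • B := by
          intro l
          induction l with
          | zero => simp
          | succ l ih => rw [pow_succ', mul_smul, ih, h3]
        have h5 : (t ^ m) ^ l = t := by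
          rw [← pow_mul, ← Nat.div_add_mod (m * l) p, hl, pow_add, pow_mul, htp, one_pow, one_mul, pow_one]
        rw [← h5]
        exact h4 l
      obtain ⟨m, hm⟩ := hτpow i z w
      have h6 : ∀ m : ℕ, t ^ m • (h • B) = h • B := by
        intro m
        induction m with
        | zero => simp
        | succ m ih => rw [pow_succ', mul_smul, ih, hstab]
      have h7 : t ^ m • (g (Sum.inl (i, z))) ∈ t ^ m • (h • B) := Set.smul_mem_smul_set hz
      rw [h6, htpow, hm] at h7
      exact h7
    -- each translate has a point coming from `Fin c`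
    have hfin : ∀ h : H, ∃ x : Fin c, g (Sum.inr x) ∈ h • B := by
      intro h
      by_contra hcon
      push Not at hcon
      -- then the cardinality is divisible by `p`
      have h1 : p ∣ (h • B).ncard := by
        have h2 : h • B = (fun y : Fin a × ZMod p => g (Sum.inl y)) '' {y | g (Sum.inl (y.1, 0)) ∈ h • B} := by
          ext x
          constructor
          · intro hx
            obtain ⟨y, rfl⟩ : ∃ y, x = g y := ⟨g⁻¹ x, by simp⟩
            rcases y with ⟨i, z⟩ | y
            · exact ⟨(i, z), hclosed h i z 0 hx, rfl⟩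
            · exact absurd hx (hcon y)
          · rintro ⟨⟨i, z⟩, hy, rfl⟩
            exact hclosed h i 0 z hy
        rw [h2, Set.ncard_image_of_injective _ (fun x y hxy => Sum.inl_injective (g.injective hxy))]
        have h3 : {y : Fin a × ZMod p | g (Sum.inl (y.1, 0)) ∈ h • B} =
            {i : Fin a | g (Sum.inl (i, (0 : ZMod p))) ∈ h • B} ×ˢ (Set.univ : Set (ZMod p)) := by
          ext ⟨i, z⟩
          simp
        rw [h3, Set.ncard_prod, Set.ncard_univ, Nat.card_eq_fintype_card, ZMod.card]
        exact Dvd.intro_left _ rfl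
      have h2 : (h • B).ncard = B.ncard := by
        rw [← Set.ncard_image_of_injective B (MulAction.injective h)]
        rfl
      rw [h2] at h1
      have h3 : p ∣ q ^ k := h1.trans (hcardB ▸ Dvd.intro _ rfl)
      exact hpq.ne ((Nat.prime_dvd_prime_iff_eq hp hq).1 (hp.dvd_of_dvd_pow h3))
    -- the number of translates
    have horb : (orbit H B).ncard ≤ c := by
      have h1 : ∀ C ∈ orbit H B, ∃ x : Fin c, g (Sum.inr x) ∈ C := by
        rintro _ ⟨h, rfl⟩
        exact hfin h
      haveI : Nonempty (Fin c) := ⟨(hfin 1).choose⟩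
      choose! f hf using h1
      have h2 : Set.InjOn f (orbit H B) := by
        rintro C hC D hD hCD
        have h3 := hf C hC
        have h4 := hf D hD
        rw [← hCD] at h4
        obtain ⟨h, rfl⟩ := hC
        obtain ⟨h', rfl⟩ := hD
        by_contra hne
        exact Set.disjoint_left.1 (hB hne) h3 h4
      calc (orbit H B).ncard ≤ (Set.univ : Set (Fin c)).ncard :=
            Set.ncard_le_ncard_of_injOn f (fun _ _ => trivial) h2 (Set.toFinite _)
        _ = c := by rw [Set.ncard_univ, Nat.card_eq_fintype_card, Fintype.card_fin]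
    have horb1 : (orbit H B).ncard = 1 := by
      have h1 : (orbit H B).ncard ∣ q ^ k := hcardB ▸ Dvd.intro_left _ rfl
      obtain ⟨j, -, hj⟩ := (Nat.dvd_prime_pow hq).1 h1
      rcases Nat.eq_zero_or_pos j with h0 | h0
      · rw [hj, h0, pow_zero]
      · exfalso
        have h2 : q ≤ q ^ j := Nat.le_self_pow h0.ne' q
        omega
    rw [horb1, mul_one] at hcardB
    apply Set.eq_of_subset_of_ncard_le (Set.subset_univ B)
    rw [Set.ncard_univ, Nat.card_eq_fintype_card, hcard, hcardB]
  -- the cycle
  set i₀ : Fin a := ⟨0, ha⟩ with hi₀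
  have hsupp : (τ i₀).support = Finset.univ.image (fun z : ZMod p => (Sum.inl (i₀, z) : (Om a p c))) := by
    ext x
    rw [Equiv.Perm.mem_support, Finset.mem_image]
    constructor
    · intro hx
      rcases x with ⟨j, z⟩ | x
      · by_cases hj : j = i₀
        · exact ⟨z, Finset.mem_univ _, by rw [hj]⟩
        · exact absurd (hτfix i₀ j z hj) hx
      · exact absurd rfl hx
    · rintro ⟨z, -, rfl⟩
      rw [hτmv]
      intro h1
      have h2 : z + 1 = z := (Prod.ext_iff.1 (Sum.inl_injective h1)).2
      have h3 : (1 : ZMod p) = 0 := by linear_combination h2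
      exact one_ne_zero h3
  have hcyc : (τ i₀).IsCycle := by
    refine ⟨Sum.inl (i₀, 0), ?_, ?_⟩
    · rw [← Equiv.Perm.mem_support, hsupp, Finset.mem_image]
      exact ⟨0, Finset.mem_univ _, rfl⟩
    · intro y hy
      rw [← Equiv.Perm.mem_support, hsupp, Finset.mem_image] at hy
      obtain ⟨z, -, rfl⟩ := hy
      obtain ⟨m, hm⟩ := hτpow i₀ 0 z
      exact ⟨m, by rw [zpow_natCast, hm]⟩
  have hgp : (τ i₀).support.card = p := by
    rw [hsupp, Finset.card_image_of_injective, Finset.card_univ, ZMod.card]
    intro x y hxy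
    exact (Prod.ext_iff.1 (Sum.inl_injective hxy)).2
  have hcyc' : (g * τ i₀ * g⁻¹).IsCycle := hcyc.conj
  have hgp' : (g * τ i₀ * g⁻¹).support.card = p := by
    rw [Equiv.Perm.card_support_conj, hgp]
  have halt := Cfsg.Agent.S0713.result H hprim hp (by rw [hcard]; exact hn2) (by rw [hcard]; exact hn1) hcyc' hgp' (hτH i₀)
  -- `r` divides the order of the alternating group
  have h1 : r ∣ Nat.card (alternatingGroup (Om a p c)) := by
    haveI : Nontrivial (Om a p c) := by
      rw [← Fintype.one_lt_card_iff_nontrivial, hcard]; omega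
    have h2 : 2 * Nat.card (alternatingGroup (Om a p c)) = (q ^ k).factorial := by
      rw [Nat.card_eq_fintype_card, two_mul_card_alternatingGroup, Fintype.card_perm, hcard]
    have h3 : r ∣ (q ^ k).factorial := (Nat.Prime.dvd_factorial hr).2 hn3
    by_cases hr2 : r = 2
    · subst hr2
      have h4 : 4 ∣ (q ^ k).factorial := Nat.dvd_factorial (by norm_num) (by omega)
      omega
    · rw [← h2] at h3
      rcases (Nat.Prime.dvd_mul hr).1 h3 with h4 | h4
      · exact absurd ((Nat.prime_dvd_prime_iff_eq hr Nat.prime_two).1 h4) hr2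
      · exact h4
  exact hrπ (hH.1 r hr (h1.trans (Subgroup.card_dvd_of_le halt)))

end CfsgLib.EPi
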