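import Cfsg.Agent.LibMin27d

set_option autoImplicit false

/-! The parity character of similarities in every characteristic. -/

namespace CfsgLib.Eps27

open Cfsg.Agent.H22 CfsgLib.Semi27 CfsgLib.Lift27 CfsgLib.RhoO27 CfsgLib.AutO27 CfsgLib.Spinor27 CfsgLib.Even27 CfsgLib.Min27 CfsgLib.H9027 CfsgLib.QForm27 CfsgLib.Desc27 Module Matrix

/-- even-dimensional forms -/
structure Ea {F : Type*} [Field F] {ι : Type} [Fintype ι] [DecidableEq ι] (Q : QuadraticForm F (ι → F)) (n : ℕ) : Prop where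
  nd : (QuadraticMap.polarBilin Q).Nondegenerate
  card : Fintype.card ι = 2 * n
  n3 : 3 ≤ n
  ev : (2 : F) ≠ 0 → Ev Q n

theorem charP_two {F : Type*} [Field F] (h2 : (2 : F) = 0) : CharP F 2 := by
  obtain ⟨p, hp⟩ := CharP.exists F
  have h1 : p ∣ 2 := (CharP.cast_eq_zero_iff F p 2).1 (by exact_mod_cast h2)
  rcases CharP.char_is_prime_or_zero F p with h3 | h3
  · rw [(Nat.prime_dvd_prime_iff_eq h3 Nat.prime_two).1 h1] at hp
    exact hp
  · rw [h3] at h1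
    exact absurd (Nat.eq_zero_of_zero_dvd h1) (by norm_num)

section
variable {F : Type*} [Field F] [Fintype F] {ι : Type} [Fintype ι] [DecidableEq ι] {Q : QuadraticForm F (ι → F)} {n : ℕ}

theorem Ea.fr (h : Ea Q n) : finrank F (ι → F) = 2 * n := by rw [Module.finrank_pi, h.card]

theorem Ea.hF (h : Ea Q n) : (∃ a : F, a ≠ 0 ∧ a ≠ 1) ∨ finrank F (ι → F) ≠ 4 := Or.inr (by
  rw [h.fr]; have := h.n3; omega)

theorem Ea.hx (h : Ea Q n) : ∃ x, Q x ≠ 0 := by
  haveI : Nontrivial (ι → F) := Module.nontrivial_of_finrank_pos (R := F) (by rw [h.fr]; have := h.n3; omega)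
  exact exists_nonsing h.nd (exists_ne 0)

theorem two_split' (h2 : (2 : F) = 0) (g : GOs Q) : ∃ (s : Fˣ) (t : Cfsg.isometryGroup F ⇑Q), (g : GL ι F) = scal s * (t : GL ι F) := by
  haveI := charP_two h2
  exact two_split g.2

theorem tI_unique (h2 : (2 : F) = 0) (hx : ∃ x, Q x ≠ 0) {s s' : Fˣ} {t t' : Cfsg.isometryGroup F ⇑Q}
    (h : scal s * (t : GL ι F) = scal s' * (t' : GL ι F)) : t = t' := by
  have h1 : (t : GL ι F) = scal (s⁻¹ * s') * (t' : GL ι F) := by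
    rw [scal_mul, mul_assoc, ← h, ← mul_assoc, ← scal_mul, inv_mul_cancel, scal_one, one_mul]
  rcases scal_cases' hx h1 with h3 | h3
  · exact h3
  · rw [h3]
    have h4 : negI Q = 1 := by
      apply Subtype.ext
      rw [negI_coe]
      have : (-1 : Fˣ) = 1 := by
        apply Units.ext
        rw [Units.val_neg, Units.val_one, neg_eq_iff_add_eq_zero, one_add_one_eq_two, h2]
      rw [this, scal_one]; rfl
    rw [h4, one_mul]

/-- the isometry part in characteristic two -/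
noncomputable def tI (h2 : (2 : F) = 0) (g : GOs Q) : Cfsg.isometryGroup F ⇑Q := (two_split' h2 g).choose_spec.choose

theorem tI_eq (h2 : (2 : F) = 0) (hx : ∃ x, Q x ≠ 0) {g : GOs Q} {s : Fˣ} {t : Cfsg.isometryGroup F ⇑Q} (hg : (g : GL ι F) = scal s * (t : GL ι F)) :
    tI h2 g = t := by
  apply tI_unique h2 hx
  rw [← hg]
  exact (two_split' h2 g).choose_spec.choose_spec.symm

/-- the isometry part as a homomorphism -/
noncomputable def tIH (h2 : (2 : F) = 0) (hx : ∃ x, Q x ≠ 0) : GOs Q →* Cfsg.isometryGroup F ⇑Q where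
  toFun := tI h2
  map_one' := tI_eq h2 hx (s := 1) (by rw [scal_one, one_mul]; rfl)
  map_mul' := by
    intro g g'
    obtain ⟨s, t, ht⟩ := two_split' h2 g
    obtain ⟨s', t', ht'⟩ := two_split' h2 g'
    rw [tI_eq h2 hx ht, tI_eq h2 hx ht']
    apply tI_eq h2 hx (s := s * s')
    rw [Subgroup.coe_mul, ht, ht', Subgroup.coe_mul, scal_mul]
    calc scal s * (t : GL ι F) * (scal s' * (t' : GL ι F)) = scal s * ((t : GL ι F) * scal s') * (t' : GL ι F) := by group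
      _ = scal s * (scal s' * (t : GL ι F)) * (t' : GL ι F) := by rw [scal_comm s' (t : GL ι F)]
      _ = _ := by group

open Classical in
/-- the parity character -/
noncomputable def Ea.ep (h : Ea Q n) : GOs Q →* ℤˣ :=
  if h2 : (2 : F) = 0 then ((par h.nd h.hF).comp (oIso Q : Cfsg.isometryGroup F ⇑Q →* OGrp Q)).comp (tIH h2 h.hx) else (h.ev h2).eps

theorem Ea.ep_two (h : Ea Q n) (h2 : (2 : F) = 0) {g : GOs Q} {s : Fˣ} {t : Cfsg.isometryGroup F ⇑Q} (hg : (g : GL ι F) = scal s * (t : GL ι F)) :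
    h.ep g = par h.nd h.hF (oIso Q t) := by
  unfold Ea.ep
  rw [dif_pos h2]
  show par h.nd h.hF (oIso Q (tI h2 g)) = _
  rw [tI_eq h2 h.hx hg]

theorem Ea.ep_odd (h : Ea Q n) (h2 : (2 : F) ≠ 0) (g : GOs Q) : h.ep g = (h.ev h2).eps g := by
  unfold Ea.ep
  rw [dif_neg h2]

theorem Ea.ep_iso (h : Ea Q n) (t : Cfsg.isometryGroup F ⇑Q) : h.ep ⟨t, iso_le t.2⟩ = par h.nd h.hF (oIso Q t) := by
  by_cases h2 : (2 : F) = 0
  · exact h.ep_two h2 (s := 1) (by rw [scal_one, one_mul])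
  · rw [h.ep_odd h2]
    apply units_iff
    rw [Ev.eps_eq_one, ← det_eq_one_iff h2 h.nd, mu_iso _ t.2, one_pow]

theorem Ea.ep_scal (h : Ea Q n) (u : Fˣ) : h.ep ⟨scal u, scal_mem u⟩ = 1 := by
  by_cases h2 : (2 : F) = 0
  · rw [h.ep_two h2 (s := u) (t := 1) (by rw [Subgroup.coe_one, mul_one]), map_one, map_one]
  · rw [h.ep_odd h2, Ev.eps_eq_one]
    have h3 : mu (h.ev h2).hx ⟨scal u, scal_mem u⟩ = u ^ 2 := mu_eq _ (fun v => by
      show Q (((scal u : GL ι F) : Matrix ι ι F) *ᵥ v) = _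
      rw [scal_mulVec, qsmul, pow_two, Units.val_mul])
    rw [h3]
    show (scal u : GL ι F).det = _
    rw [det_scal, h.card, pow_mul]

theorem Ea.ep_rfG (h : Ea Q n) (v : ι → F) (hv : Q v ≠ 0) : h.ep (rfG v hv) = -1 := by
  have h1 := h.ep_iso (rfM Q v hv)
  have h3 : (⟨(rfM Q v hv : Cfsg.isometryGroup F ⇑Q), iso_le (rfM Q v hv).2⟩ : GOs Q) = rfG v hv := rfl
  rw [h3] at h1
  rw [h1]
  unfold rfM
  rw [MulEquiv.apply_symm_apply, par_refl]

theorem cjI_omega (x : SP Q) (t : Cfsg.isometryGroup F ⇑Q) : cjI Q x t ∈ Cfsg.Omega F ⇑Q ↔ t ∈ Cfsg.Omega F ⇑Q := by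
  have h1 : ∀ (x : SP Q) (t : Cfsg.isometryGroup F ⇑Q), t ∈ Cfsg.Omega F ⇑Q → cjI Q x t ∈ Cfsg.Omega F ⇑Q := fun x t ht => (cjO Q x ⟨t, ht⟩).2
  refine ⟨fun ht => ?_, h1 x t⟩
  have h3 := h1 x⁻¹ _ ht
  rwa [map_inv, MulAut.inv_apply_self] at h3

theorem Ea.ep_cjg (h : Ea Q n) (x : SP Q) (g : GOs Q) : h.ep (cjg x g) = h.ep g := by
  by_cases h2 : (2 : F) = 0
  · haveI := charP_two h2
    obtain ⟨s, t, ht⟩ := two_split' h2 g
    have h3 : ((cjg x g : GOs Q) : GL ι F) = scal (Units.map ((x.1.right : F →+* F) : F →* F) s) * ((cjI Q x t : Cfsg.isometryGroup F ⇑Q) : GL ι F) := by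
      show cjG x.1 g.1 = _
      rw [ht, map_mul]
      congr 1
      rw [cjG_apply, gm_scal, ← scal_comm, mul_inv_cancel_right]
    rw [h.ep_two h2 h3, h.ep_two h2 ht]
    apply units_iff
    rw [← two_omega h.nd h.hF h.hx, ← two_omega h.nd h.hF h.hx, cjI_omega]
  · rw [h.ep_odd h2, h.ep_odd h2, eps_cjg]

end

section base
variable {F₀ F : Type*} [Field F₀] [Fintype F₀] [Field F] [Fintype F] {ι : Type} [Fintype ι] [DecidableEq ι]
  {Q₀ : QuadraticForm F₀ (ι → F₀)} {Q : QuadraticForm F (ι → F)} {n : ℕ}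

theorem map_GOs (j : F₀ →+* F) (hj : ∀ x, Q (j ∘ x) = j (Q₀ x)) (g : GOs Q₀) : Matrix.GeneralLinearGroup.map j (g : GL ι F₀) ∈ GOs Q := by
  obtain ⟨c, hc⟩ := g.2
  exact ⟨Units.map (j : F₀ →* F) c, lift_mult j hj hc⟩

theorem Ea.ep_map (h₀ : Ea Q₀ n) (h : Ea Q n) (j : F₀ →+* F) (hj : ∀ x, Q (j ∘ x) = j (Q₀ x)) (g : GOs Q₀) :
    h.ep ⟨Matrix.GeneralLinearGroup.map j (g : GL ι F₀), map_GOs j hj g⟩ = h₀.ep g := by
  by_cases h2 : (2 : F₀) = 0
  · have h2' : (2 : F) = 0 := by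
      have := congrArg j h2
      rwa [map_ofNat, map_zero] at this
    obtain ⟨s, t, ht⟩ := two_split' h2 g
    have ht' : Matrix.GeneralLinearGroup.map j (g : GL ι F₀) = scal (Units.map (j : F₀ →* F) s) * ((liftI j hj t : Cfsg.isometryGroup F ⇑Q) : GL ι F) := by
      rw [ht, map_mul, liftI_coe]
      congr 1
      apply Units.ext
      show (Matrix.scalar ι (s : F₀)).map j = Matrix.scalar ι (j (s : F₀))
      rw [Matrix.scalar_apply, Matrix.scalar_apply, Matrix.diagonal_map (map_zero _)]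
    rw [h.ep_two h2' (g := ⟨Matrix.GeneralLinearGroup.map j (g : GL ι F₀), map_GOs j hj g⟩) ht', h₀.ep_two h2 ht]
    exact par_liftI j hj h₀.nd h.nd h₀.hF h.hF t
  · have h2' : (2 : F) ≠ 0 := by
      have := (map_ne_zero_iff j j.injective).2 h2
      rwa [map_ofNat] at this
    rw [h.ep_odd h2', h₀.ep_odd h2]
    apply units_iff
    rw [Ev.eps_eq_one, Ev.eps_eq_one]
    have h3 : mu (h.ev h2').hx ⟨Matrix.GeneralLinearGroup.map j (g : GL ι F₀), map_GOs j hj g⟩ = Units.map (j : F₀ →* F) (mu (h₀.ev h2).hx g) :=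
      mu_eq _ (lift_mult j hj (mu_spec (h₀.ev h2).hx g))
    rw [h3]
    show (Matrix.GeneralLinearGroup.map j (g : GL ι F₀) : GL ι F).det = _ ↔ _
    rw [det_map_gl, ← map_pow]
    exact (Units.map_injective j.injective).eq_iff

end base

end CfsgLib.Eps27
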