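import Cfsg.Agent.LibEps27a

set_option autoImplicit false

/-! The inner-diagonal subgroup of similarities; transport along similarities of forms. -/

namespace CfsgLib.Eps27

open Cfsg.Agent.H22 CfsgLib.Semi27 CfsgLib.Lift27 CfsgLib.RhoO27 CfsgLib.AutO27 CfsgLib.Spinor27 CfsgLib.Even27 CfsgLib.Min27 CfsgLib.H9027 CfsgLib.QForm27 CfsgLib.Desc27 Module Matrix

section gam
variable {F : Type*} [Field F] [Fintype F] {ι : Type} [Fintype ι] [DecidableEq ι] {Q : QuadraticForm F (ι → F)} {n : ℕ}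

/-- similarities of even parity -/
noncomputable def Ea.Gam (h : Ea Q n) : Subgroup (GL ι F) := h.ep.ker.map (GOs Q).subtype

theorem Ea.mem_Gam (h : Ea Q n) {g : GL ι F} : g ∈ h.Gam ↔ ∃ hg : g ∈ GOs Q, h.ep ⟨g, hg⟩ = 1 := by
  constructor
  · rintro ⟨x, hx, rfl⟩
    exact ⟨x.2, hx⟩
  · rintro ⟨hg, h1⟩
    exact ⟨⟨g, hg⟩, h1, rfl⟩

theorem Ea.Gam_le (h : Ea Q n) : h.Gam ≤ GOs Q := by
  rintro _ ⟨x, -, rfl⟩
  exact x.2

theorem Ea.scal_Gam (h : Ea Q n) (u : Fˣ) : scal u ∈ h.Gam := h.mem_Gam.2 ⟨scal_mem u, h.ep_scal u⟩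

theorem Ea.cjG_Gam (h : Ea Q n) (x : SP Q) {g : GL ι F} (hg : g ∈ h.Gam) : cjG x.1 g ∈ h.Gam := by
  obtain ⟨h1, h2⟩ := h.mem_Gam.1 hg
  exact h.mem_Gam.2 ⟨cjG_GOs x h1, by rw [← h2]; exact h.ep_cjg x ⟨g, h1⟩⟩

theorem Ea.gm_Gam (h : Ea Q n) {σ : F ≃+* F} (hσ : (⟨1, σ⟩ : GamL ι F) ∈ SP Q) {g : GL ι F} (hg : g ∈ h.Gam) : gm σ g ∈ h.Gam := by
  rw [← cjG_std]
  exact h.cjG_Gam ⟨_, hσ⟩ hg

theorem Ea.ep_gm (h : Ea Q n) {σ : F ≃+* F} (hσ : (⟨1, σ⟩ : GamL ι F) ∈ SP Q) (g : GOs Q) (hg : gm σ (g : GL ι F) ∈ GOs Q) : h.ep ⟨gm σ (g : GL ι F), hg⟩ = h.ep g := by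
  rw [← h.ep_cjg ⟨_, hσ⟩ g]
  congr 1
  apply Subtype.ext
  exact (cjG_std σ _).symm

/-- the range as an automorphism group -/
theorem Ea.range_Gam (h : Ea Q n) (P : GL ι F → Prop) (hP : ∀ g : GOs Q, P g ↔ h.ep g = 1) :
    Cfsg.autSubgroupOf (fun β : Cfsg.POmega F ⇑Q ≃* Cfsg.POmega F ⇑Q =>
      ∃ g : GL ι F, g ∈ Cfsg.Geo.quadSimilarityGroup (F := F) ⇑Q ∧ P g ∧ Cfsg.IsInducedBySemilinearPOmega ⇑Q g (RingEquiv.refl F) β) =
      (rho h.Gam h.Gam_le).range := by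
  apply range_eq
  intro g
  rw [h.mem_Gam]
  constructor
  · rintro ⟨hg, h1⟩
    exact ⟨hg, (hP ⟨g, hg⟩).2 h1⟩
  · rintro ⟨hg, h1⟩
    exact ⟨hg, (hP ⟨g, hg⟩).1 h1⟩

theorem Ea.rho_normal (h : Ea Q n) {e f : Fin 3 → (ι → F)} {u : ι → F} (hG : Good Q e f u) (α : MulAut (Cfsg.POmega F ⇑Q))
    (β : MulAut (Cfsg.POmega F ⇑Q)) (hβ : β ∈ (rho h.Gam h.Gam_le).range) : α * β * α⁻¹ ∈ (rho h.Gam h.Gam_le).range :=
  range_normal h.Gam h.Gam_le hG (fun x _ hg => h.cjG_Gam x hg) α β hβ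

/-- rational reflections -/
theorem gm_rfM {σ : F ≃+* F} (hσ : ∀ v, Q (σ ∘ v) = σ (Q v)) {w : ι → F} (hw : σ ∘ w = w) (hw' : Q w ≠ 0) :
    gm σ ((rfM Q w hw' : Cfsg.isometryGroup F ⇑Q) : GL ι F) = ((rfM Q w hw' : Cfsg.isometryGroup F ⇑Q) : GL ι F) := by
  apply gl_ext
  intro y
  obtain ⟨x, rfl⟩ : ∃ x : ι → F, σ ∘ x = y := ⟨σ.symm ∘ y, by funext i; simp⟩
  have hp : ∀ x y : ι → F, QuadraticMap.polar Q (σ ∘ x) (σ ∘ y) = σ (QuadraticMap.polar Q x y) := by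
    intro x y
    unfold QuadraticMap.polar
    have : (σ ∘ x + σ ∘ y : ι → F) = σ ∘ (x + y) := by funext i; simp
    rw [this, hσ, hσ, hσ, map_sub, map_sub]
  rw [coe_gm, gm_mulVec, rfM_mulVec, rfM_mulVec]
  have e1 : σ (Q w) = Q w := by rw [← hσ, hw]
  have e2 : QuadraticMap.polar Q w (σ ∘ x) = σ (QuadraticMap.polar Q w x) := by
    conv_lhs => rw [← hw]
    exact hp _ _
  rw [e2]
  funext i
  have e3 : σ (w i) = w i := congrFun hw i
  simp only [Function.comp_apply, Pi.sub_apply, Pi.smul_apply, smul_eq_mul, map_sub, map_mul, map_inv₀, e1, e3, map_div₀]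

end gam

/-! ### transport -/

section tr
variable {F : Type*} [Field F] {ι ι' : Type} [Fintype ι] [DecidableEq ι] [Fintype ι'] [DecidableEq ι']

/-- a similarity between two forms -/
structure Tr (Q : QuadraticForm F (ι → F)) (Q' : QuadraticForm F (ι' → F)) where
  K : Matrix ι ι' F
  L : Matrix ι' ι F
  KL : K * L = 1
  LK : L * K = 1
  d : Fˣ
  hK : ∀ v, Q (K *ᵥ v) = d * Q' v

variable {Q : QuadraticForm F (ι → F)} {Q' : QuadraticForm F (ι' → F)}

theorem Tr.hL (t : Tr Q Q') (v : ι → F) : Q' (t.L *ᵥ v) = ((t.d⁻¹ : Fˣ) : F) * Q v := by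
  have h1 := t.hK (t.L *ᵥ v)
  rw [mulVec_mulVec, t.KL, one_mulVec] at h1
  rw [h1, Units.inv_mul_cancel_left]

/-- the inverse -/
def Tr.symm (t : Tr Q Q') : Tr Q' Q := ⟨t.L, t.K, t.LK, t.KL, t.d⁻¹, t.hL⟩

theorem map_mul' (σ : F ≃+* F) {a b c : Type} [Fintype b] (M : Matrix a b F) (N : Matrix b c F) : (M * N).map σ = M.map σ * N.map σ :=
  Matrix.map_mul (f := (σ : F →+* F))

theorem map_one' (σ : F ≃+* F) {a : Type} [DecidableEq a] : (1 : Matrix a a F).map σ = 1 :=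
  Matrix.map_one (f := (σ : F →+* F)) (map_zero _) (map_one _)

theorem Tr.KLσ (t : Tr Q Q') (σ : F ≃+* F) : t.K.map σ * t.L.map σ = 1 := by rw [← map_mul', t.KL, map_one']

theorem Tr.LKσ (t : Tr Q Q') (σ : F ≃+* F) : t.L.map σ * t.K.map σ = 1 := by rw [← map_mul', t.LK, map_one']

/-- transport of semilinear maps -/
def Tr.gam (t : Tr Q Q') : GamL ι' F →* GamL ι F where
  toFun x := ⟨⟨t.K * (x.left : Matrix ι' ι' F) * t.L.map x.right, t.K.map x.right * ((x.left⁻¹ : GL ι' F) : Matrix ι' ι' F) * t.L, by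
      calc t.K * (x.left : Matrix ι' ι' F) * t.L.map x.right * (t.K.map x.right * ((x.left⁻¹ : GL ι' F) : Matrix ι' ι' F) * t.L) =
          t.K * (x.left : Matrix ι' ι' F) * (t.L.map x.right * t.K.map x.right) * ((x.left⁻¹ : GL ι' F) : Matrix ι' ι' F) * t.L := by simp only [Matrix.mul_assoc]
        _ = t.K * ((x.left : Matrix ι' ι' F) * ((x.left⁻¹ : GL ι' F) : Matrix ι' ι' F)) * t.L := by rw [t.LKσ, Matrix.mul_one]; simp only [Matrix.mul_assoc]
        _ = 1 := by rw [Units.mul_inv, Matrix.mul_one, t.KL], by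
      calc t.K.map x.right * ((x.left⁻¹ : GL ι' F) : Matrix ι' ι' F) * t.L * (t.K * (x.left : Matrix ι' ι' F) * t.L.map x.right) =
          t.K.map x.right * ((x.left⁻¹ : GL ι' F) : Matrix ι' ι' F) * (t.L * t.K) * (x.left : Matrix ι' ι' F) * t.L.map x.right := by simp only [Matrix.mul_assoc]
        _ = t.K.map x.right * (((x.left⁻¹ : GL ι' F) : Matrix ι' ι' F) * (x.left : Matrix ι' ι' F)) * t.L.map x.right := by rw [t.LK, Matrix.mul_one]; simp only [Matrix.mul_assoc]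
        _ = 1 := by rw [Units.inv_mul, Matrix.mul_one, t.KLσ]⟩, x.right⟩
  map_one' := by
    apply SemidirectProduct.ext
    · apply Units.ext
      show t.K * ((1 : GL ι' F) : Matrix ι' ι' F) * t.L.map (1 : F ≃+* F) = 1
      have : t.L.map (1 : F ≃+* F) = t.L := by ext i j; rfl
      rw [this, Units.val_one, Matrix.mul_one, t.KL]
    · rfl
  map_mul' x y := by
    apply SemidirectProduct.ext
    · apply Units.ext
      show t.K * ((x.left : Matrix ι' ι' F) * (y.left : Matrix ι' ι' F).map x.right) * t.L.map (x.right * y.right : F ≃+* F) =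
        (t.K * (x.left : Matrix ι' ι' F) * t.L.map x.right) * (t.K * (y.left : Matrix ι' ι' F) * t.L.map y.right).map x.right
      rw [map_mul', map_mul']
      have h1 : t.L.map (x.right * y.right : F ≃+* F) = (t.L.map y.right).map x.right := by ext i j; rfl
      rw [h1]
      calc t.K * ((x.left : Matrix ι' ι' F) * (y.left : Matrix ι' ι' F).map x.right) * (t.L.map y.right).map x.right =
          t.K * (x.left : Matrix ι' ι' F) * (1 : Matrix ι' ι' F) * ((y.left : Matrix ι' ι' F).map x.right * (t.L.map y.right).map x.right) := by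
            rw [Matrix.mul_one]; simp only [Matrix.mul_assoc]
        _ = _ := by rw [← t.LKσ x.right]; simp only [Matrix.mul_assoc]
    · rfl

theorem Tr.gam_left (t : Tr Q Q') (x : GamL ι' F) : ((t.gam x).left : Matrix ι ι F) = t.K * (x.left : Matrix ι' ι' F) * t.L.map x.right := rfl

theorem Tr.gam_right (t : Tr Q Q') (x : GamL ι' F) : (t.gam x).right = x.right := rfl

theorem Tr.gam_act (t : Tr Q Q') (x : GamL ι' F) (v : ι' → F) : act (t.gam x) (t.K *ᵥ v) = t.K *ᵥ act x v := by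
  unfold act
  rw [t.gam_left, t.gam_right]
  have h1 : x.right ∘ (t.K *ᵥ v) = t.K.map x.right *ᵥ (x.right ∘ v) := by
    funext i
    simp only [Function.comp_apply, mulVec, dotProduct, map_sum, map_mul, Matrix.map_apply]
  rw [h1, mulVec_mulVec, Matrix.mul_assoc, t.LKσ, Matrix.mul_one, mulVec_mulVec]

theorem Tr.gam_symm (t : Tr Q Q') (x : GamL ι' F) : t.symm.gam (t.gam x) = x := by
  apply SemidirectProduct.ext
  · apply Units.ext
    show t.L * (t.K * (x.left : Matrix ι' ι' F) * t.L.map x.right) * t.K.map x.right = (x.left : Matrix ι' ι' F)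
    calc t.L * (t.K * (x.left : Matrix ι' ι' F) * t.L.map x.right) * t.K.map x.right =
        (t.L * t.K) * (x.left : Matrix ι' ι' F) * (t.L.map x.right * t.K.map x.right) := by simp only [Matrix.mul_assoc]
      _ = _ := by rw [t.LK, t.LKσ, Matrix.mul_one, Matrix.one_mul]
  · rfl

theorem Tr.gam_SP (t : Tr Q Q') {x : GamL ι' F} (hx : x ∈ SP Q') : t.gam x ∈ SP Q := by
  rw [mem_SP] at hx ⊢
  obtain ⟨c, hc⟩ := hx
  refine ⟨t.d * c * (Units.map (x.right : F →* F) t.d)⁻¹, fun v => ?_⟩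
  obtain ⟨w, rfl⟩ : ∃ w, t.K *ᵥ w = v := ⟨t.L *ᵥ v, by rw [mulVec_mulVec, t.KL, one_mulVec]⟩
  rw [t.gam_act, t.hK, hc, t.hK, t.gam_right, map_mul]
  have h1 : ((Units.map (x.right : F →* F) t.d : Fˣ) : F) = x.right t.d := rfl
  have h2 : x.right (t.d : F) ≠ 0 := (Units.map (x.right : F →* F) t.d).ne_zero
  rw [Units.val_mul, Units.val_mul, Units.val_inv_eq_inv_val, h1]
  field_simp

/-- transport on `GL` -/
def Tr.gl (t : Tr Q Q') : GL ι' F →* GL ι F where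
  toFun g := ⟨t.K * (g : Matrix ι' ι' F) * t.L, t.K * ((g⁻¹ : GL ι' F) : Matrix ι' ι' F) * t.L, by
      calc t.K * (g : Matrix ι' ι' F) * t.L * (t.K * ((g⁻¹ : GL ι' F) : Matrix ι' ι' F) * t.L) =
          t.K * (g : Matrix ι' ι' F) * (t.L * t.K) * ((g⁻¹ : GL ι' F) : Matrix ι' ι' F) * t.L := by simp only [Matrix.mul_assoc]
        _ = t.K * ((g : Matrix ι' ι' F) * ((g⁻¹ : GL ι' F) : Matrix ι' ι' F)) * t.L := by rw [t.LK, Matrix.mul_one]; simp only [Matrix.mul_assoc]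
        _ = 1 := by rw [Units.mul_inv, Matrix.mul_one, t.KL], by
      calc t.K * ((g⁻¹ : GL ι' F) : Matrix ι' ι' F) * t.L * (t.K * (g : Matrix ι' ι' F) * t.L) =
          t.K * ((g⁻¹ : GL ι' F) : Matrix ι' ι' F) * (t.L * t.K) * (g : Matrix ι' ι' F) * t.L := by simp only [Matrix.mul_assoc]
        _ = t.K * (((g⁻¹ : GL ι' F) : Matrix ι' ι' F) * (g : Matrix ι' ι' F)) * t.L := by rw [t.LK, Matrix.mul_one]; simp only [Matrix.mul_assoc]
        _ = 1 := by rw [Units.inv_mul, Matrix.mul_one, t.KL]⟩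
  map_one' := by
    apply Units.ext
    show t.K * ((1 : GL ι' F) : Matrix ι' ι' F) * t.L = 1
    rw [Units.val_one, Matrix.mul_one, t.KL]
  map_mul' x y := by
    apply Units.ext
    show t.K * ((x : Matrix ι' ι' F) * (y : Matrix ι' ι' F)) * t.L = (t.K * (x : Matrix ι' ι' F) * t.L) * (t.K * (y : Matrix ι' ι' F) * t.L)
    calc t.K * ((x : Matrix ι' ι' F) * (y : Matrix ι' ι' F)) * t.L = t.K * (x : Matrix ι' ι' F) * (1 : Matrix ι' ι' F) * ((y : Matrix ι' ι' F) * t.L) := by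
          rw [Matrix.mul_one]; simp only [Matrix.mul_assoc]
      _ = _ := by rw [← t.LK]; simp only [Matrix.mul_assoc]

theorem Tr.gl_coe (t : Tr Q Q') (g : GL ι' F) : ((t.gl g : GL ι F) : Matrix ι ι F) = t.K * (g : Matrix ι' ι' F) * t.L := rfl

theorem Tr.gam_inl (t : Tr Q Q') (g : GL ι' F) : t.gam (SemidirectProduct.inl g) = SemidirectProduct.inl (t.gl g) := by
  apply SemidirectProduct.ext
  · apply Units.ext
    show t.K * (g : Matrix ι' ι' F) * t.L.map (1 : F ≃+* F) = _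
    have : t.L.map (1 : F ≃+* F) = t.L := by ext i j; rfl
    rw [this]; rfl
  · rfl

theorem Tr.gl_symm (t : Tr Q Q') (g : GL ι' F) : t.symm.gl (t.gl g) = g := by
  have h1 := t.gam_symm (SemidirectProduct.inl g)
  rw [t.gam_inl, t.symm.gam_inl] at h1
  exact SemidirectProduct.inl_injective h1

theorem Tr.gl_cjG (t : Tr Q Q') (x : GamL ι' F) (s : GL ι' F) : cjG (t.gam x) (t.gl s) = t.gl (cjG x s) := by
  have h1 : ∀ {κ : Type} [Fintype κ] [DecidableEq κ] (x : GamL κ F) (s : GL κ F), (SemidirectProduct.inl (cjG x s) : GamL κ F) = x * SemidirectProduct.inl s * x⁻¹ := by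
    intro κ _ _ x s
    apply SemidirectProduct.ext
    · show x.left * gm x.right s * x.left⁻¹ = x.left * gm x.right s * gm (x.right * 1) (gm x.right⁻¹ x.left⁻¹)
      rw [mul_one, gm_gm_inv]
    · show (1 : F ≃+* F) = x.right * 1 * x.right⁻¹
      rw [mul_one, mul_inv_cancel]
  have h3 : (SemidirectProduct.inl (cjG (t.gam x) (t.gl s)) : GamL ι F) = SemidirectProduct.inl (t.gl (cjG x s)) := by
    rw [h1, ← t.gam_inl, ← t.gam_inl, h1, map_mul, map_mul, map_inv]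
  exact SemidirectProduct.inl_injective h3

theorem Tr.gl_mulVec (t : Tr Q Q') (g : GL ι' F) (v : ι' → F) : ((t.gl g : GL ι F) : Matrix ι ι F) *ᵥ (t.K *ᵥ v) = t.K *ᵥ ((g : Matrix ι' ι' F) *ᵥ v) := by
  rw [t.gl_coe, mulVec_mulVec, Matrix.mul_assoc, t.LK, Matrix.mul_one, mulVec_mulVec]

theorem Tr.gl_sim (t : Tr Q Q') {g : GL ι' F} {c : F} (hg : ∀ v, Q' ((g : Matrix ι' ι' F) *ᵥ v) = c * Q' v) (v : ι → F) :
    Q (((t.gl g : GL ι F) : Matrix ι ι F) *ᵥ v) = c * Q v := by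
  obtain ⟨w, rfl⟩ : ∃ w, t.K *ᵥ w = v := ⟨t.L *ᵥ v, by rw [mulVec_mulVec, t.KL, one_mulVec]⟩
  rw [t.gl_mulVec, t.hK, hg, t.hK]; ring

theorem Tr.gl_iso (t : Tr Q Q') {g : GL ι' F} (hg : g ∈ Cfsg.isometryGroup F ⇑Q') : t.gl g ∈ Cfsg.isometryGroup F ⇑Q := by
  rw [mem_isometryGroup] at hg ⊢
  intro v
  rw [t.gl_sim (c := 1) (fun v => by rw [hg, one_mul]), one_mul]

theorem Tr.gl_GOs (t : Tr Q Q') {g : GL ι' F} (hg : g ∈ GOs Q') : t.gl g ∈ GOs Q := by
  obtain ⟨c, hc⟩ := hg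
  exact ⟨c, t.gl_sim hc⟩

/-- transport of isometries -/
def Tr.iso (t : Tr Q Q') : Cfsg.isometryGroup F ⇑Q' ≃* Cfsg.isometryGroup F ⇑Q where
  toFun g := ⟨t.gl g, t.gl_iso g.2⟩
  invFun g := ⟨t.symm.gl g, t.symm.gl_iso g.2⟩
  left_inv g := Subtype.ext (t.gl_symm _)
  right_inv g := Subtype.ext (t.symm.gl_symm _)
  map_mul' x y := Subtype.ext (map_mul _ _ _)

theorem Tr.iso_coe (t : Tr Q Q') (g : Cfsg.isometryGroup F ⇑Q') : ((t.iso g : Cfsg.isometryGroup F ⇑Q) : GL ι F) = t.gl g := rfl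

/-- isomorphic groups have isomorphic commutator subgroups -/
noncomputable def commCongr {A B : Type*} [Group A] [Group B] (e : A ≃* B) : commutator A ≃* commutator B :=
  (e.subgroupMap (commutator A)).trans (MulEquiv.subgroupCongr (by
    rw [commutator_def, commutator_def, Subgroup.map_commutator]
    congr 1 <;> exact Subgroup.map_top_of_surjective _ e.surjective))

theorem commCongr_coe {A B : Type*} [Group A] [Group B] (e : A ≃* B) (x : commutator A) : ((commCongr e x : commutator B) : B) = e x := rfl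

/-- transport of `Ω` -/
noncomputable def Tr.om (t : Tr Q Q') : Cfsg.Omega F ⇑Q' ≃* Cfsg.Omega F ⇑Q := commCongr t.iso

theorem Tr.om_coe (t : Tr Q Q') (s : Cfsg.Omega F ⇑Q') : ((t.om s : Cfsg.Omega F ⇑Q) : Cfsg.isometryGroup F ⇑Q) = t.iso s := rfl

theorem Tr.iso_omega (t : Tr Q Q') (g : Cfsg.isometryGroup F ⇑Q') : t.iso g ∈ Cfsg.Omega F ⇑Q ↔ g ∈ Cfsg.Omega F ⇑Q' := by
  constructor
  · intro h
    have h1 := (t.symm.om ⟨_, h⟩).2
    rw [t.symm.om_coe] at h1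
    have h2 : t.symm.iso (t.iso g) = g := Subtype.ext (t.gl_symm _)
    rwa [h2] at h1
  · intro h
    exact (t.om ⟨g, h⟩).2

/-- transport of `PΩ` -/
noncomputable def Tr.PO (t : Tr Q Q') : Cfsg.POmega F ⇑Q' ≃* Cfsg.POmega F ⇑Q := quotCenterCongr t.om

theorem Tr.PO_mk (t : Tr Q Q') (s : Cfsg.Omega F ⇑Q') : t.PO (QuotientGroup.mk s) = QuotientGroup.mk (t.om s) := rfl

theorem Tr.R_gam (t : Tr Q Q') (x : SP Q') : R Q ⟨t.gam x.1, t.gam_SP x.2⟩ = MulAut.congr t.PO (R Q' x) := by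
  apply MulEquiv.ext
  intro y
  obtain ⟨z, rfl⟩ := t.PO.surjective y
  have h1 : (MulAut.congr t.PO (R Q' x)) (t.PO z) = t.PO (R Q' x z) := by
    show t.PO (R Q' x (t.PO.symm (t.PO z))) = _
    rw [MulEquiv.symm_apply_apply]
  rw [h1]
  induction z using QuotientGroup.induction_on with
  | H s =>
    rw [R_mk, t.PO_mk, t.PO_mk, R_mk]
    congr 1
    apply Subtype.ext
    apply Subtype.ext
    show cjG (t.gam x.1) (t.gl s.1.1) = t.gl (cjG x.1 s.1.1)
    exact t.gl_cjG x.1 s.1.1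

theorem Tr.mu_gl (t : Tr Q Q') (hx' : ∃ x, Q' x ≠ 0) (hx : ∃ x, Q x ≠ 0) (g : GOs Q') : mu hx ⟨t.gl g, t.gl_GOs g.2⟩ = mu hx' g :=
  mu_eq hx (t.gl_sim (mu_spec hx' g))

theorem Tr.det_gl (t : Tr Q Q') (g : GL ι' F) : (t.gl g : GL ι F).det = g.det := by
  apply Units.ext
  show (t.K * (g : Matrix ι' ι' F) * t.L).det = (g : Matrix ι' ι' F).det
  exact det_conj_of_mul_eq_one t.KL t.LK

theorem Tr.gl_scal (t : Tr Q Q') (s : Fˣ) : t.gl (scal s) = scal s := by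
  apply Units.ext
  show t.K * (Matrix.scalar ι' (s : F)) * t.L = Matrix.scalar ι (s : F)
  have h1 : t.K * (Matrix.scalar ι' (s : F)) = (s : F) • t.K := by
    ext i j
    simp [Matrix.scalar_apply, Matrix.mul_diagonal, mul_comm]
  rw [h1, Matrix.smul_mul, t.KL]
  ext i j
  simp [Matrix.scalar_apply, Matrix.diagonal_apply, Matrix.one_apply]

end tr

section trep
variable {F : Type*} [Field F] [Fintype F] {ι ι' : Type} [Fintype ι] [DecidableEq ι] [Fintype ι'] [DecidableEq ι']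
variable {Q : QuadraticForm F (ι → F)} {Q' : QuadraticForm F (ι' → F)} {n : ℕ}

theorem Tr.ep_gl (t : Tr Q Q') (h : Ea Q n) (h' : Ea Q' n) (g : GOs Q') : h.ep ⟨t.gl g, t.gl_GOs g.2⟩ = h'.ep g := by
  by_cases h2 : (2 : F) = 0
  · haveI := charP_two h2
    obtain ⟨s, u, hu⟩ := two_split' h2 g
    have h3 : t.gl (g : GL ι' F) = scal s * ((t.iso u : Cfsg.isometryGroup F ⇑Q) : GL ι F) := by
      rw [hu, map_mul, t.gl_scal]; rfl
    rw [h.ep_two h2 (g := ⟨t.gl g, t.gl_GOs g.2⟩) h3, h'.ep_two h2 hu]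
    apply units_iff
    rw [← two_omega h.nd h.hF h.hx, ← two_omega h'.nd h'.hF h'.hx, t.iso_omega]
  · rw [h.ep_odd h2, h'.ep_odd h2]
    apply units_iff
    rw [Ev.eps_eq_one, Ev.eps_eq_one, t.mu_gl (h'.ev h2).hx]
    show (t.gl (g : GL ι' F)).det = _ ↔ _
    rw [t.det_gl]

theorem Tr.Gam_gl (t : Tr Q Q') (h : Ea Q n) (h' : Ea Q' n) {g : GL ι' F} (hg : g ∈ h'.Gam) : t.gl g ∈ h.Gam := by
  obtain ⟨h1, h2⟩ := h'.mem_Gam.1 hg
  exact h.mem_Gam.2 ⟨t.gl_GOs h1, by rw [← h2, ← t.ep_gl h h']⟩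

theorem Tr.rho_gl (t : Tr Q Q') (h : Ea Q n) (h' : Ea Q' n) (g : h'.Gam) :
    rho h.Gam h.Gam_le ⟨t.gl g, t.Gam_gl h h' g.2⟩ = MulAut.congr t.PO (rho h'.Gam h'.Gam_le g) := by
  rw [rho_def, rho_def, ← t.R_gam]
  exact congrArg _ (Subtype.ext (t.gam_inl _).symm)

/-- the inner-diagonal groups correspond -/
theorem Tr.map_range (t : Tr Q Q') (h : Ea Q n) (h' : Ea Q' n) (β : MulAut (Cfsg.POmega F ⇑Q')) :
    MulAut.congr t.PO β ∈ (rho h.Gam h.Gam_le).range ↔ β ∈ (rho h'.Gam h'.Gam_le).range := by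
  constructor
  · rintro ⟨g, hg⟩
    obtain ⟨g', hg', hgg⟩ : ∃ g' : GL ι' F, ∃ h0 : g' ∈ h'.Gam, t.gl g' = g := by
      refine ⟨t.symm.gl g, t.symm.Gam_gl h' h g.2, t.symm.gl_symm _⟩
    refine ⟨⟨g', hg'⟩, (MulAut.congr t.PO).injective ?_⟩
    rw [← t.rho_gl h h', ← hg]
    congr 1
    exact Subtype.ext hgg
  · rintro ⟨g, rfl⟩
    exact ⟨_, t.rho_gl h h' g⟩

end trep

/-! ### transport of inner automorphisms, class counts, centralizers -/

section grp

theorem congr_inn_aux {A B : Type*} [Group A] [Group B] (ψ : A ≃* B) (β : MulAut A) (hβ : β ∈ Cfsg.Inn A) : MulAut.congr ψ β ∈ Cfsg.Inn B := by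
  obtain ⟨a, rfl⟩ := hβ
  refine ⟨ψ a, ?_⟩
  apply MulEquiv.ext
  intro y
  show ψ a * y * (ψ a)⁻¹ = ψ (a * ψ.symm y * a⁻¹)
  rw [map_mul, map_mul, map_inv, MulEquiv.apply_symm_apply]

variable {A B : Type*} [Group A] [Group B] (ψ : A ≃* B)

theorem congr_inn (β : MulAut A) : MulAut.congr ψ β ∈ Cfsg.Inn B ↔ β ∈ Cfsg.Inn A := by
  constructor
  · intro h
    have h1 := congr_inn_aux ψ.symm _ h
    have h2 : MulAut.congr ψ.symm (MulAut.congr ψ β) = β := by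
      apply MulEquiv.ext
      intro y
      show ψ.symm (ψ (β (ψ.symm (ψ y)))) = β y
      rw [MulEquiv.symm_apply_apply, MulEquiv.symm_apply_apply]
    rwa [h2] at h1
  · exact congr_inn_aux ψ β

end grp

section cnt
variable {A B : Type*} [Group A] [Group B]

theorem conjUnder_congr (e : A ≃* B) (G : Subgroup A) (G' : Subgroup B) (hG : ∀ a, e a ∈ G' ↔ a ∈ G) (x y : A) :
    Cfsg.IsConjUnder G x y ↔ Cfsg.IsConjUnder G' (e x) (e y) := by
  constructor
  · rintro ⟨g, hg, rfl⟩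
    exact ⟨e g, (hG g).2 hg, by rw [map_mul, map_mul, map_inv]⟩
  · rintro ⟨g, hg, h⟩
    obtain ⟨a, rfl⟩ := e.surjective g
    refine ⟨a, (hG a).1 hg, e.injective ?_⟩
    rw [h, map_mul, map_mul, map_inv]

theorem splitCount_congr (e : A ≃* B) (G T : Subgroup A) (G' T' : Subgroup B) (hG : ∀ a, e a ∈ G' ↔ a ∈ G) (hT : ∀ a, e a ∈ T' ↔ a ∈ T) (x : A) :
    Cfsg.splitClassCount G T x = Cfsg.splitClassCount G' T' (e x) := by
  let E : {y : A // Cfsg.IsConjUnder G x y} ≃ {y : B // Cfsg.IsConjUnder G' (e x) y} :=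
    Equiv.subtypeEquiv e.toEquiv (fun y => conjUnder_congr e G G' hG x y)
  exact Nat.card_congr (Quot.congr E (fun y z => conjUnder_congr e T T' hT y.1 z.1))

theorem centr_congr (e : A ≃* B) (G : Subgroup A) (G' : Subgroup B) (hG : ∀ a, e a ∈ G' ↔ a ∈ G) (x : A) :
    Nonempty (↥(G ⊓ Subgroup.centralizer {x}) ≃* ↥(G' ⊓ Subgroup.centralizer {e x})) := by
  have h : (G ⊓ Subgroup.centralizer {x}).map e.toMonoidHom = G' ⊓ Subgroup.centralizer {e x} := by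
    ext y
    constructor
    · rintro ⟨g, ⟨hg1, hg2⟩, rfl⟩
      refine ⟨(hG g).2 hg1, Subgroup.mem_centralizer_singleton_iff.2 ?_⟩
      have h2 : g * x = x * g := Subgroup.mem_centralizer_singleton_iff.1 hg2
      show e g * e x = e x * e g
      rw [← map_mul, h2, map_mul]
    · rintro ⟨hy1, hy2⟩
      obtain ⟨g, rfl⟩ := e.surjective y
      have h2 : e g * e x = e x * e g := Subgroup.mem_centralizer_singleton_iff.1 hy2
      refine ⟨g, ⟨(hG g).1 hy1, Subgroup.mem_centralizer_singleton_iff.2 (e.injective ?_)⟩, rfl⟩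
      rw [map_mul, h2, map_mul]
  exact ⟨((G ⊓ Subgroup.centralizer {x}).equivMapOfInjective _ e.injective).trans (MulEquiv.subgroupCongr h)⟩

/-- a class that does not split -/
theorem splitCount_one (G T : Subgroup A) (x : A) (hTG : T ≤ G) (h : ∀ g ∈ G, ∃ t ∈ T, ∃ c : A, c * x = x * c ∧ g = t * c) :
    Cfsg.splitClassCount G T x = 1 := by
  have hu : Subsingleton (Quot fun y z : {y : A // Cfsg.IsConjUnder G x y} => Cfsg.IsConjUnder T y.1 z.1) := by
    have key : ∀ y : {y : A // Cfsg.IsConjUnder G x y}, Cfsg.IsConjUnder T x y.1 := by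
      rintro ⟨y, g, hg, rfl⟩
      obtain ⟨t, ht, c, hc, rfl⟩ := h g hg
      refine ⟨t, ht, ?_⟩
      show t * c * x * (t * c)⁻¹ = _
      have : c * x * c⁻¹ = x := by rw [hc, mul_inv_cancel_right]
      calc t * c * x * (t * c)⁻¹ = t * (c * x * c⁻¹) * t⁻¹ := by group
        _ = _ := by rw [this]
    constructor
    intro a b
    induction a using Quot.ind with
    | mk a =>
      induction b using Quot.ind with
      | mk b =>
        obtain ⟨s, hs, hs'⟩ := key a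
        obtain ⟨t, ht, ht'⟩ := key b
        refine Quot.sound ⟨t * s⁻¹, mul_mem ht (inv_mem hs), ?_⟩
        rw [hs', ht']; group
  haveI : Nonempty (Quot fun y z : {y : A // Cfsg.IsConjUnder G x y} => Cfsg.IsConjUnder T y.1 z.1) := ⟨Quot.mk _ ⟨x, 1, G.one_mem, by group⟩⟩
  exact Nat.card_eq_one_iff_unique.2 ⟨hu, inferInstance⟩

end cnt

end CfsgLib.Eps27
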