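import Cfsg.Agent.LibEps27b

set_option autoImplicit false

/-! Classification of even-dimensional quadratic forms over finite fields. -/

namespace CfsgLib.Eps27

open Cfsg.Agent.H22 CfsgLib.Semi27 CfsgLib.Lift27 CfsgLib.RhoO27 CfsgLib.AutO27 CfsgLib.Spinor27 CfsgLib.Even27 CfsgLib.Min27 CfsgLib.H9027 CfsgLib.QForm27 CfsgLib.Desc27 Module Matrix

universe u

/-- anisotropic binary forms are equivalent -/
theorem quad_equiv {F : Type u} [Field F] [Finite F] {a b a₁ b₁ : F} (hab : ∀ z₁ z₂ : F, z₁ ^ 2 + a * z₁ * z₂ + b * z₂ ^ 2 = 0 → z₁ = 0 ∧ z₂ = 0)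
    (hab₁ : ∀ z₁ z₂ : F, z₁ ^ 2 + a₁ * z₁ * z₂ + b₁ * z₂ ^ 2 = 0 → z₁ = 0 ∧ z₂ = 0) :
    ∃ s t : F, t ≠ 0 ∧ a = 2 * s + a₁ * t ∧ b = s ^ 2 + a₁ * s * t + b₁ * t ^ 2 := by
  obtain ⟨K, _, _, hK, θ₁, hθ₁⟩ := exists_adjoin hab₁
  obtain ⟨θ, hθ⟩ := root_of_quad (K := K) hK hab
  haveI : Module.Finite F K := Module.finite_of_finrank_pos (by rw [hK]; norm_num)
  have hj : Function.Injective (algebraMap F K) := (algebraMap F K).injective
  have hno : ∀ x : F, θ₁ ≠ algebraMap F K x := by
    intro x hx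
    rw [hx, ← map_pow, ← map_mul, ← map_add, ← map_add, map_eq_zero_iff _ hj] at hθ₁
    exact one_ne_zero (hab₁ x 1 (by linear_combination hθ₁)).2
  have hno' : ∀ x : F, θ ≠ algebraMap F K x := by
    intro x hx
    rw [hx, ← map_pow, ← map_mul, ← map_add, ← map_add, map_eq_zero_iff _ hj] at hθ
    exact one_ne_zero (hab x 1 (by linear_combination hθ)).2
  have hind : ∀ x y : F, algebraMap F K x + algebraMap F K y * θ₁ = 0 → x = 0 ∧ y = 0 := by
    intro x y h
    have hy : y = 0 := by
      by_contra hy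
      have hy' : algebraMap F K y ≠ 0 := (map_ne_zero_iff _ hj).2 hy
      apply hno (-x / y)
      rw [map_div₀, map_neg, eq_div_iff hy']
      linear_combination h
    subst hy
    rw [map_zero, zero_mul, add_zero, map_eq_zero_iff _ hj] at h
    exact ⟨h, rfl⟩
  let φ : (F × F) →ₗ[F] K :=
    { toFun := fun p => algebraMap F K p.1 + algebraMap F K p.2 * θ₁
      map_add' := fun p q => by simp only [Prod.fst_add, Prod.snd_add, map_add]; ring
      map_smul' := fun c p => by
        show algebraMap F K (c * p.1) + algebraMap F K (c * p.2) * θ₁ = c • (algebraMap F K p.1 + algebraMap F K p.2 * θ₁)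
        rw [Algebra.smul_def, map_mul, map_mul]; ring }
  have hφi : Function.Injective φ := by
    rw [← LinearMap.ker_eq_bot, LinearMap.ker_eq_bot']
    rintro ⟨x, y⟩ h
    obtain ⟨h1, h2⟩ := hind x y h
    rw [h1, h2]; rfl
  have hφs : Function.Surjective φ := (LinearMap.injective_iff_surjective_of_finrank_eq_finrank (by
    rw [hK, Module.finrank_prod, Module.finrank_self])).1 hφi
  obtain ⟨⟨x, y⟩, hxy⟩ := hφs θ
  have hxy' : algebraMap F K x + algebraMap F K y * θ₁ = θ := hxy
  have hy : y ≠ 0 := by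
    rintro rfl
    rw [map_zero, zero_mul, add_zero] at hxy'
    exact hno' x hxy'.symm
  have key := hind (x ^ 2 - b₁ * y ^ 2 + a * x + b) (2 * x * y - a₁ * y ^ 2 + a * y) (by
    simp only [map_add, map_sub, map_mul, map_pow, map_ofNat]
    rw [← hxy'] at hθ
    linear_combination hθ - (algebraMap F K y) ^ 2 * hθ₁)
  obtain ⟨k1, k2⟩ := key
  have k3 : a = a₁ * y - 2 * x := by
    have : y * (a - (a₁ * y - 2 * x)) = 0 := by linear_combination k2
    exact sub_eq_zero.1 ((mul_eq_zero.1 this).resolve_left hy)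
  refine ⟨-x, y, hy, by rw [k3]; ring, ?_⟩
  rw [k3] at k1
  linear_combination k1

section coord
variable {F : Type u} [Field F] {V : Type*} [AddCommGroup V] [Module F V] [FiniteDimensional F V] {Q : QuadraticForm F V}

theorem plus_coord {m : ℕ} (hfr : finrank F V = 2 * m) {s : Fin m → V × V} (hs : QFam Q m s) :
    ∃ φ : (Fin m ⊕ Fin m → F) ≃ₗ[F] V, ∀ x, Q (φ x) = qPlus m F x := by
  let b : Fin m ⊕ Fin m → V := Sum.elim (fun i => (s i).1) (fun i => (s i).2)
  let φ0 : (Fin m ⊕ Fin m → F) →ₗ[F] V := (Pi.basisFun F _).constr F b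
  have hφ0 : ∀ i, φ0 (Pi.single i 1) = b i := by
    intro i
    have := (Pi.basisFun F (Fin m ⊕ Fin m)).constr_basis F b i
    rwa [Pi.basisFun_apply] at this
  have hform : Q.comp φ0 = qPlus m F := by
    apply qf_ext (Pi.basisFun F _)
    · intro i
      rw [Pi.basisFun_apply, QuadraticMap.comp_apply, hφ0]
      rcases i with i | i
      · show Q (s i).1 = _
        rw [(hs.1 i).1, coe_qPlus]; unfold Cfsg.quadFormPlus; simp [Pi.single_apply]
      · show Q (s i).2 = _
        rw [(hs.1 i).2, coe_qPlus]; unfold Cfsg.quadFormPlus; simp [Pi.single_apply]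
    · intro i j
      have e1 : QuadraticMap.polar (⇑(Q.comp φ0)) (Pi.basisFun F _ i) (Pi.basisFun F _ j) = QuadraticMap.polar Q (b i) (b j) := by
        unfold QuadraticMap.polar
        simp only [QuadraticMap.comp_apply, map_add, Pi.basisFun_apply, hφ0]
      rw [e1, Pi.basisFun_apply, Pi.basisFun_apply, polar_qPlus]
      rcases i with i | i <;> rcases j with j | j
      · show QuadraticMap.polar Q (s i).1 (s j).1 = _
        rw [(hs.2 i j).1]; simp [Pi.single_apply]
      · show QuadraticMap.polar Q (s i).1 (s j).2 = _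
        rw [(hs.2 i j).2.2]
        by_cases h : i = j
        · subst h; simp [Pi.single_apply]
        · simp [Pi.single_apply, h, Ne.symm h]
      · show QuadraticMap.polar Q (s i).2 (s j).1 = _
        rw [QuadraticMap.polar_comm, (hs.2 j i).2.2]
        by_cases h : i = j
        · subst h; simp [Pi.single_apply]
        · simp [Pi.single_apply, h, Ne.symm h]
      · show QuadraticMap.polar Q (s i).2 (s j).2 = _
        rw [(hs.2 i j).2.1]; simp [Pi.single_apply]
  have hq : ∀ x, Q (φ0 x) = 1 * qPlus m F x := fun x => by rw [one_mul]; exact congrArg (fun D : QuadraticForm F _ => D x) hform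
  have hinj := inj_of_nondeg φ0 (nondeg_qPlus m) one_ne_zero hq
  exact ⟨φ0.linearEquivOfInjective hinj (by rw [hfr]; simp; omega), fun x => by rw [← one_mul (qPlus m F x)]; exact hq x⟩

theorem minus_coord {m : ℕ} (hfr : finrank F V = 2 * m + 2) {s : Fin m → V × V} (hs : QFam Q m s) {w0 w1 : V} (hw0 : w0 ∈ cp Q s) (hw1 : w1 ∈ cp Q s)
    {d a b : F} (hd : d ≠ 0) (hab : a ^ 2 - 4 * b ≠ 0) (h0 : Q w0 = d) (h01 : QuadraticMap.polar Q w0 w1 = d * a) (h1 : Q w1 = d * b) :
    ∃ φ : ((Fin m ⊕ Fin m) ⊕ Fin 2 → F) ≃ₗ[F] V, ∀ x, Q (φ x) = d * qMinus m F a b x := by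
  let bs : (Fin m ⊕ Fin m) ⊕ Fin 2 → V := Sum.elim (Sum.elim (fun i => (s i).1) (fun i => d • (s i).2)) ![w0, w1]
  let φ0 : ((Fin m ⊕ Fin m) ⊕ Fin 2 → F) →ₗ[F] V := (Pi.basisFun F _).constr F bs
  have hφ0 : ∀ i, φ0 (Pi.single i 1) = bs i := by
    intro i
    have := (Pi.basisFun F ((Fin m ⊕ Fin m) ⊕ Fin 2)).constr_basis F bs i
    rwa [Pi.basisFun_apply] at this
  have hform : Q.comp φ0 = d • qMinus m F a b := by
    apply qf_ext (Pi.basisFun F _)
    · intro i
      rw [Pi.basisFun_apply, QuadraticMap.comp_apply, hφ0, QuadraticMap.smul_apply, smul_eq_mul]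
      rcases i with (i | i) | i
      · show Q (s i).1 = _
        rw [(hs.1 i).1, coe_qMinus]; unfold Cfsg.quadFormMinus; simp [Pi.single_apply]
      · show Q (d • (s i).2) = _
        rw [qsmul, (hs.1 i).2, coe_qMinus]; unfold Cfsg.quadFormMinus; simp [Pi.single_apply]
      · fin_cases i
        · show Q w0 = _
          rw [h0, coe_qMinus]; unfold Cfsg.quadFormMinus; simp [Pi.single_apply]
        · show Q w1 = _
          rw [h1, coe_qMinus]; unfold Cfsg.quadFormMinus; simp [Pi.single_apply]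
    · intro i j
      have e1 : QuadraticMap.polar (⇑(Q.comp φ0)) (Pi.basisFun F _ i) (Pi.basisFun F _ j) = QuadraticMap.polar Q (bs i) (bs j) := by
        unfold QuadraticMap.polar
        simp only [QuadraticMap.comp_apply, map_add, Pi.basisFun_apply, hφ0]
      have e2 : QuadraticMap.polar (⇑(d • qMinus m F a b)) (Pi.basisFun F _ i) (Pi.basisFun F _ j) =
          d * QuadraticMap.polar (qMinus m F a b) (Pi.single i 1) (Pi.single j 1) := by
        unfold QuadraticMap.polar
        simp only [QuadraticMap.smul_apply, Pi.basisFun_apply, smul_eq_mul]; ring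
      rw [e1, e2, polar_qMinus]
      rcases i with (i | i) | i <;> rcases j with (j | j) | j
      · show QuadraticMap.polar Q (s i).1 (s j).1 = _
        rw [(hs.2 i j).1]; simp [Pi.single_apply]
      · show QuadraticMap.polar Q (s i).1 (d • (s j).2) = _
        rw [QuadraticMap.polar_smul_right, (hs.2 i j).2.2]
        by_cases h : i = j
        · subst h; simp [Pi.single_apply]
        · simp [Pi.single_apply, h, Ne.symm h]
      · have h3 : QuadraticMap.polar Q (s i).1 (bs (.inr j)) = 0 := by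
          fin_cases j
          · exact (hw0 i).1
          · exact (hw1 i).1
        show QuadraticMap.polar Q (s i).1 (bs (.inr j)) = _
        rw [h3]; simp [Pi.single_apply]
      · show QuadraticMap.polar Q (d • (s i).2) (s j).1 = _
        rw [QuadraticMap.polar_smul_left, QuadraticMap.polar_comm, (hs.2 j i).2.2]
        by_cases h : i = j
        · subst h; simp [Pi.single_apply]
        · simp [Pi.single_apply, h, Ne.symm h]
      · show QuadraticMap.polar Q (d • (s i).2) (d • (s j).2) = _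
        rw [QuadraticMap.polar_smul_left, QuadraticMap.polar_smul_right, (hs.2 i j).2.1]; simp [Pi.single_apply]
      · have h3 : QuadraticMap.polar Q (s i).2 (bs (.inr j)) = 0 := by
          fin_cases j
          · exact (hw0 i).2
          · exact (hw1 i).2
        show QuadraticMap.polar Q (d • (s i).2) (bs (.inr j)) = _
        rw [QuadraticMap.polar_smul_left, h3]; simp [Pi.single_apply]
      · have h3 : QuadraticMap.polar Q (s j).1 (bs (.inr i)) = 0 := by
          fin_cases i
          · exact (hw0 j).1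
          · exact (hw1 j).1
        show QuadraticMap.polar Q (bs (.inr i)) (s j).1 = _
        rw [QuadraticMap.polar_comm, h3]; simp [Pi.single_apply]
      · have h3 : QuadraticMap.polar Q (s j).2 (bs (.inr i)) = 0 := by
          fin_cases i
          · exact (hw0 j).2
          · exact (hw1 j).2
        show QuadraticMap.polar Q (bs (.inr i)) (d • (s j).2) = _
        rw [QuadraticMap.polar_smul_right, QuadraticMap.polar_comm, h3]; simp [Pi.single_apply]
      · fin_cases i <;> fin_cases j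
        · show QuadraticMap.polar Q w0 w0 = _
          rw [pself, h0]; simp; ring
        · show QuadraticMap.polar Q w0 w1 = _
          rw [h01]; simp
        · show QuadraticMap.polar Q w1 w0 = _
          rw [QuadraticMap.polar_comm, h01]; simp
        · show QuadraticMap.polar Q w1 w1 = _
          rw [pself, h1]; simp; ring
  have hq : ∀ x, Q (φ0 x) = d * qMinus m F a b x := fun x => congrArg (fun D : QuadraticForm F _ => D x) hform
  have hinj := inj_of_nondeg φ0 (nondeg_qMinus' m a b hab) hd hq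
  exact ⟨φ0.linearEquivOfInjective hinj (by rw [hfr]; simp; omega), hq⟩

end coord

section cls
variable {F : Type u} [Field F] [Fintype F] {V : Type*} [AddCommGroup V] [Module F V] [FiniteDimensional F V] {Q : QuadraticForm F V}

/-- classification in even dimension -/
theorem even_coord (hQ : (QuadraticMap.polarBilin Q).Nondegenerate) {m : ℕ} (hfr : finrank F V = 2 * m + 2) :
    (∃ φ : (Fin (m + 1) ⊕ Fin (m + 1) → F) ≃ₗ[F] V, ∀ x, Q (φ x) = qPlus (m + 1) F x) ∨
    (∀ a b : F, (∀ z₁ z₂ : F, z₁ ^ 2 + a * z₁ * z₂ + b * z₂ ^ 2 = 0 → z₁ = 0 ∧ z₂ = 0) →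
      ∃ (d : F) (φ : ((Fin m ⊕ Fin m) ⊕ Fin 2 → F) ≃ₗ[F] V), d ≠ 0 ∧ ∀ x, Q (φ x) = d * qMinus m F a b x) := by
  obtain ⟨s, hs⟩ := exists_fam m Q hQ (by omega)
  have h1 := finrank_cp hs
  have hcp : finrank F (cp Q s) = 2 := by omega
  have hnd := nondeg_cp hs hQ
  by_cases hsing : ∃ v : cp Q s, v ≠ 0 ∧ Q (v : V) = 0
  · left
    obtain ⟨v, hv0, hv⟩ := hsing
    obtain ⟨f, hf⟩ := exists_HP_of_singular hnd v hv0 hv
    have hv' : Q (v : V) = 0 := hf.1
    have hf' : Q (f : V) = 0 := hf.2.1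
    have hvf : QuadraticMap.polar Q (v : V) (f : V) = 1 := hf.2.2
    have hs' : QFam Q (m + 1) (Fin.snoc s ((v : V), (f : V))) := by
      refine ⟨fun i => ?_, fun i j => ?_⟩
      · refine Fin.lastCases ?_ (fun i => ?_) i
        · simp only [Fin.snoc_last]; exact ⟨hv', hf'⟩
        · simp only [Fin.snoc_castSucc]; exact hs.1 i
      · refine Fin.lastCases ?_ (fun i => ?_) i <;> refine Fin.lastCases ?_ (fun j => ?_) j
        · simp only [Fin.snoc_last, if_true]
          exact ⟨by rw [pself, hv', mul_zero], by rw [pself, hf', mul_zero], hvf⟩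
        · simp only [Fin.snoc_last, Fin.snoc_castSucc]
          rw [if_neg (Fin.castSucc_lt_last j).ne']
          exact ⟨by rw [QuadraticMap.polar_comm]; exact (v.2 j).1, by rw [QuadraticMap.polar_comm]; exact (f.2 j).2, by rw [QuadraticMap.polar_comm]; exact (v.2 j).2⟩
        · simp only [Fin.snoc_last, Fin.snoc_castSucc]
          rw [if_neg (Fin.castSucc_lt_last i).ne]
          exact ⟨(v.2 i).1, (f.2 i).2, (f.2 i).1⟩
        · simp only [Fin.snoc_castSucc]
          refine ⟨(hs.2 i j).1, (hs.2 i j).2.1, ?_⟩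
          rw [(hs.2 i j).2.2]
          simp only [Fin.castSucc_inj]
    exact plus_coord (by omega) hs'
  · right
    push Not at hsing
    intro a b hab
    haveI : Nontrivial (cp Q s) := Module.nontrivial_of_finrank_pos (R := F) (by omega)
    obtain ⟨w, hw⟩ := exists_ne (0 : cp Q s)
    have hw' : Q (w : V) ≠ 0 := hsing w hw
    -- a second vector
    obtain ⟨v, hv⟩ : ∃ v : cp Q s, v ∉ Submodule.span F {w} := by
      by_contra hcon
      push Not at hcon
      have h3 : (⊤ : Submodule F (cp Q s)) ≤ Submodule.span F {w} := fun v _ => hcon v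
      have h4 := Submodule.finrank_mono h3
      rw [finrank_top, hcp, finrank_span_singleton hw] at h4
      omega
    obtain ⟨d, hd⟩ : ∃ d, d = Q (w : V) := ⟨_, rfl⟩
    rw [← hd] at hw'
    obtain ⟨a₁, ha₁⟩ : ∃ a₁, a₁ = QuadraticMap.polar Q (w : V) (v : V) / d := ⟨_, rfl⟩
    obtain ⟨b₁, hb₁⟩ : ∃ b₁, b₁ = Q (v : V) / d := ⟨_, rfl⟩
    have ha₁' : QuadraticMap.polar Q (w : V) (v : V) = d * a₁ := by rw [ha₁]; field_simp
    have hb₁' : Q (v : V) = d * b₁ := by rw [hb₁]; field_simp
    have hQc : ∀ z₁ z₂ : F, Q ((z₁ • w + z₂ • v : cp Q s) : V) = d * (z₁ ^ 2 + a₁ * z₁ * z₂ + b₁ * z₂ ^ 2) := by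
      intro z₁ z₂
      have : ((z₁ • w + z₂ • v : cp Q s) : V) = z₁ • (w : V) + z₂ • (v : V) := rfl
      rw [this, qadd, qsmul, qsmul, QuadraticMap.polar_smul_left, QuadraticMap.polar_smul_right, ← hd, ha₁', hb₁', smul_eq_mul, smul_eq_mul]
      ring
    have hab₁ : ∀ z₁ z₂ : F, z₁ ^ 2 + a₁ * z₁ * z₂ + b₁ * z₂ ^ 2 = 0 → z₁ = 0 ∧ z₂ = 0 := by
      intro z₁ z₂ hz
      have h3 : z₁ • w + z₂ • v = 0 := by
        by_contra h4
        exact hsing _ h4 (by rw [hQc, hz, mul_zero])
      have hz2 : z₂ = 0 := by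
        by_contra hz2
        apply hv
        rw [Submodule.mem_span_singleton]
        refine ⟨-z₁ / z₂, ?_⟩
        have h5 : z₂ • v = -z₁ • w := by rw [neg_smul]; exact eq_neg_of_add_eq_zero_right h3
        rw [div_eq_inv_mul, mul_smul, ← h5, smul_smul, inv_mul_cancel₀ hz2, one_smul]
      subst hz2
      rw [zero_smul, add_zero] at h3
      exact ⟨(smul_eq_zero.1 h3).resolve_right hw, rfl⟩
    obtain ⟨x, y, hy, ha, hb⟩ := quad_equiv hab hab₁
    refine ⟨d, ?_⟩
    obtain ⟨φ, hφ⟩ := minus_coord (a := a) (b := b) hfr hs w.2 (x • w + y • v : cp Q s).2 hw' (disc_ne_zero a b hab) hd.symm (by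
      have : ((x • w + y • v : cp Q s) : V) = x • (w : V) + y • (v : V) := rfl
      rw [this, QuadraticMap.polar_add_right, QuadraticMap.polar_smul_right, QuadraticMap.polar_smul_right, pself, ← hd, ha₁', ha, smul_eq_mul, smul_eq_mul]
      ring) (by rw [hQc, hb])
    exact ⟨φ, hw', hφ⟩

end cls

section noplus
variable {F : Type u} [Field F] [Fintype F] {m : ℕ} {a b : F}

/-- the anisotropic form has Witt index `m` -/
theorem no_fam (hab : ∀ z₁ z₂ : F, z₁ ^ 2 + a * z₁ * z₂ + b * z₂ ^ 2 = 0 → z₁ = 0 ∧ z₂ = 0)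
    {s : Fin (m + 1) → ((Fin m ⊕ Fin m) ⊕ Fin 2 → F) × ((Fin m ⊕ Fin m) ⊕ Fin 2 → F)} (hs : QFam (qMinus m F a b) (m + 1) s) : False := by
  have hfr := fr_qMinus m a b
  let s₀ : Fin m → ((Fin m ⊕ Fin m) ⊕ Fin 2 → F) × ((Fin m ⊕ Fin m) ⊕ Fin 2 → F) := fun i => (Pi.single (.inl (.inl i)) 1, Pi.single (.inl (.inr i)) 1)
  have hs₀ : QFam (qMinus m F a b) m s₀ := by
    refine ⟨fun i => ⟨hfr.qe i, hfr.qf i⟩, fun i j => ⟨hfr.ee i j, hfr.ff i j, ?_⟩⟩
    by_cases h : i = j
    · subst h; rw [if_pos rfl]; exact hfr.ef i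
    · rw [if_neg h]; exact hfr.ef' i j h
  let s' : Fin m → ((Fin m ⊕ Fin m) ⊕ Fin 2 → F) × ((Fin m ⊕ Fin m) ⊕ Fin 2 → F) := fun i => s i.castSucc
  have hs' : QFam (qMinus m F a b) m s' := by
    refine ⟨fun i => hs.1 _, fun i j => ⟨(hs.2 _ _).1, (hs.2 _ _).2.1, ?_⟩⟩
    have := (hs.2 i.castSucc j.castSucc).2.2
    simp only [Fin.castSucc_inj] at this
    exact this
  obtain ⟨g, hg⟩ := witt_fam (nondeg_qMinus m a b hab) (QFam.vec s₀) (QFam.vec s') hs₀.indep hs'.indep
    (fun i => by rw [hs₀.Q_vec, hs'.Q_vec]) (fun i j => QFam.polar_vec hs₀ hs' i j)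
  obtain ⟨v, hv⟩ : ∃ v, v = (g⁻¹).1 (s (Fin.last m)).1 := ⟨_, rfl⟩
  have hgv : g.1 v = (s (Fin.last m)).1 := by
    rw [hv]
    show (g * g⁻¹).1 _ = _
    rw [mul_inv_cancel]; rfl
  have hQv : qMinus m F a b v = 0 := by
    rw [← og_Q g, hgv]
    exact (hs.1 _).1
  have h1 : ∀ i, v (.inl (.inr i)) = 0 := by
    intro i
    have e1 : QuadraticMap.polar (qMinus m F a b) (Pi.single (.inl (.inl i)) 1) v = 0 := by
      rw [← og_polar g, hgv]
      have := hg (.inl i)
      have h3 : g.1 (Pi.single (.inl (.inl i)) 1) = (s i.castSucc).1 := this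
      rw [h3]
      exact (hs.2 _ _).1
    rw [polar_qMinus] at e1
    simpa [Pi.single_apply] using e1
  have h2 : ∀ i, v (.inl (.inl i)) = 0 := by
    intro i
    have e1 : QuadraticMap.polar (qMinus m F a b) (Pi.single (.inl (.inr i)) 1) v = 0 := by
      rw [← og_polar g, hgv]
      have := hg (.inr i)
      have h3 : g.1 (Pi.single (.inl (.inr i)) 1) = (s i.castSucc).2 := this
      rw [h3, QuadraticMap.polar_comm, (hs.2 _ _).2.2, if_neg (Fin.castSucc_lt_last i).ne']
    rw [polar_qMinus] at e1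
    simpa [Pi.single_apply] using e1
  have h3 : v (.inr 0) = 0 ∧ v (.inr 1) = 0 := by
    apply hab
    rw [← hQv, coe_qMinus]
    unfold Cfsg.quadFormMinus
    simp [h1, h2]
  have hv0 : v = 0 := by
    funext k
    rcases k with (i | i) | i
    · exact h2 i
    · exact h1 i
    · fin_cases i
      · exact h3.1
      · exact h3.2
  have h4 : (s (Fin.last m)).1 = 0 := by rw [← hgv, hv0, map_zero]
  have h5 := (hs.2 (Fin.last m) (Fin.last m)).2.2
  rw [h4, if_pos rfl, QuadraticMap.polar_zero_left] at h5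
  exact zero_ne_one h5

end noplus

end CfsgLib.Eps27
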