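import Cfsg.Agent.LibEps27c

set_option autoImplicit false

/-! Standard models of semisimilarities of prime order. -/

namespace CfsgLib.Eps27

open Cfsg.Agent.H22 CfsgLib.Semi27 CfsgLib.Lift27 CfsgLib.RhoO27 CfsgLib.AutO27 CfsgLib.Spinor27 CfsgLib.Even27 CfsgLib.Min27 CfsgLib.H9027 CfsgLib.QForm27 CfsgLib.Desc27 Module Matrix

universe u

section forms
variable {F : Type u} [Field F] [Fintype F] {m : ℕ} {a b : F}

theorem ea_qPlus (hm : 3 ≤ m) : Ea (qPlus m F) m where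
  nd := nondeg_qPlus m
  card := by simp; omega
  n3 := hm
  ev h2 := ev_qPlus h2 (by omega)

theorem ev_qMinus' (h2 : (2 : F) ≠ 0) (hd : a ^ 2 - 4 * b ≠ 0) : Ev (qMinus m F a b) (m + 1) where
  nd := nondeg_qMinus' m a b hd
  card := by simp; omega
  n1 := by omega
  sim c := by
    obtain ⟨w0, w1, hw⟩ : ∃ w0 w1 : F, w0 ^ 2 + a * w0 * w1 + b * w1 ^ 2 = (c : F) := by
      obtain ⟨v, hv⟩ := exists_norm_odd h2 (nondeg_qMinus' 0 a b hd) (by simp) (c : F)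
      refine ⟨v (.inr 0), v (.inr 1), ?_⟩
      rw [← hv, coe_qMinus]
      unfold Cfsg.quadFormMinus
      simp
    exact ⟨dM m c w0 w1 hw, dM_Q c w0 w1 hw, dM_det m c w0 w1 hw⟩
  h2 := h2

theorem ea_qMinus (hm : 2 ≤ m) (hd : a ^ 2 - 4 * b ≠ 0) : Ea (qMinus m F a b) (m + 1) where
  nd := nondeg_qMinus' m a b hd
  card := by simp; omega
  n3 := by omega
  ev h2 := ev_qMinus' h2 hd

theorem gd_qMinus (hm : 3 ≤ m) (hd : a ^ 2 - 4 * b ≠ 0) : ∃ (e f : Fin 3 → ((Fin m ⊕ Fin m) ⊕ Fin 2 → F)) (u : _), Gd (qMinus m F a b) e f u := by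
  refine ⟨_, _, _, nondeg_qMinus' m a b hd, (fr_qMinus m a b).comp (Fin.castLE hm) (Fin.castLE_injective hm), ?_⟩
  simp; omega

theorem psc_plus (h : Ea (qPlus m F) m) (g : GOs (qPlus m F)) :
    Cfsg.PreservesSingularClasses ⇑(qPlus m F) ((g : GL (Fin m ⊕ Fin m) F) : Matrix (Fin m ⊕ Fin m) (Fin m ⊕ Fin m) F) ↔ h.ep g = 1 := by
  by_cases h2 : (2 : F) = 0
  · obtain ⟨s, t, ht⟩ := two_split' h2 g
    rw [h.ep_two h2 ht]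
    exact PSC_sq h.nd h.hF finrank_plus TS_UP finrank_UP ht
  · rw [h.ep_odd h2, Ev.eps_eq_one]
    exact PSC_plus' h2 (mu_spec (h.ev h2).hx g)

theorem psc_minus (hm : 2 ≤ m) (hab : ∀ z₁ z₂ : F, z₁ ^ 2 + a * z₁ * z₂ + b * z₂ ^ 2 = 0 → z₁ = 0 ∧ z₂ = 0) (h : Ea (qMinus m F a b) (m + 1)) (g : GOs (qMinus m F a b)) :
    Cfsg.PreservesSingularClassesMinus m a b ((g : GL ((Fin m ⊕ Fin m) ⊕ Fin 2) F) : Matrix ((Fin m ⊕ Fin m) ⊕ Fin 2) ((Fin m ⊕ Fin m) ⊕ Fin 2) F) ↔ h.ep g = 1 := by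
  by_cases h2 : (2 : F) = 0
  · haveI := charP_two h2
    obtain ⟨s, t, ht⟩ := two_split' h2 g
    rw [h.ep_two h2 ht]
    exact PSC_minus_two hm hab h.hF ht
  · rw [h.ep_odd h2, Ev.eps_eq_one]
    exact PSC_minus' h2 hab (mu_spec (h.ev h2).hx g)

end forms

section lang
variable {F : Type u} [Field F] [Fintype F] {ι ι' : Type} [Fintype ι] [DecidableEq ι] [Fintype ι'] [DecidableEq ι']
variable {Q : QuadraticForm F (ι → F)} {Q' : QuadraticForm F (ι' → F)} {n : ℕ} {σ : F ≃+* F}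

theorem gam_pow (g : GL ι F) (k : ℕ) : (⟨g, σ⟩ : GamL ι F) ^ k = ⟨nrm σ g k, σ ^ k⟩ := by
  induction k with
  | zero => rfl
  | succ k ih =>
    rw [pow_succ', ih]
    apply SemidirectProduct.ext
    · rfl
    · show σ * σ ^ k = σ ^ (k + 1)
      rw [pow_succ']

/-- an adapted transport -/
def Adp (t : Tr Q Q') (σ : F ≃+* F) (g : GL ι F) : Prop := ∃ l : Fˣ, (g : Matrix ι ι F) * t.K.map σ = (l : F) • t.K

theorem build_tr {Q₀' : QuadraticForm (fixF σ) (ι' → fixF σ)} (hQ' : ∀ x, Q' (jv σ x) = (Q₀' x : F)) {g k : GL ι F} {l : Fˣ} (hk : g * gm σ k = scal l * k)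
    {D₀ : QuadraticForm (fixF σ) (ι → fixF σ)} {a : F} (ha : a ≠ 0) (hD : ∀ x, Q ((k : Matrix ι ι F) *ᵥ jv σ x) = a * (D₀ x : F))
    (φ : (ι' → fixF σ) ≃ₗ[fixF σ] (ι → fixF σ)) {d : fixF σ} (hd : d ≠ 0) (hφ : ∀ x, D₀ (φ x) = d * Q₀' x) : ∃ t : Tr Q Q', Adp t σ g := by
  obtain ⟨P, hP⟩ : ∃ P : Matrix ι ι' (fixF σ), P = LinearMap.toMatrix' (φ : (ι' → fixF σ) →ₗ[fixF σ] (ι → fixF σ)) := ⟨_, rfl⟩
  obtain ⟨P', hP'⟩ : ∃ P' : Matrix ι' ι (fixF σ), P' = LinearMap.toMatrix' (φ.symm : (ι → fixF σ) →ₗ[fixF σ] (ι' → fixF σ)) := ⟨_, rfl⟩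
  have h1 : P * P' = 1 := by
    rw [hP, hP', ← LinearMap.toMatrix'_comp, LinearEquiv.comp_symm, LinearMap.toMatrix'_id]
  have h2 : P' * P = 1 := by
    rw [hP, hP', ← LinearMap.toMatrix'_comp, LinearEquiv.symm_comp, LinearMap.toMatrix'_id]
  have hPφ : ∀ x, P *ᵥ x = φ x := by
    intro x
    rw [hP, LinearMap.toMatrix'_mulVec]; rfl
  let j : fixF σ →+* F := (fixF σ).subtype
  have e1 : P.map j * P'.map j = 1 := by rw [← Matrix.map_mul, h1, Matrix.map_one _ (map_zero _) (map_one _)]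
  have e2 : P'.map j * P.map j = 1 := by rw [← Matrix.map_mul, h2, Matrix.map_one _ (map_zero _) (map_one _)]
  have hPj : ∀ x : ι' → fixF σ, P.map j *ᵥ jv σ x = jv σ (P *ᵥ x) := by
    intro x
    ext i
    unfold jv
    simp only [Matrix.mulVec, dotProduct]
    push_cast
    rfl
  have had : a * (d : F) ≠ 0 := mul_ne_zero ha (fun h => hd (Subtype.ext h))
  have hC : Q.comp (Matrix.toLin' ((k : Matrix ι ι F) * P.map j)) = (a * (d : F)) • Q' := by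
    apply qf_ext_rational (σ := σ)
    intro x
    rw [QuadraticMap.comp_apply, Matrix.toLin'_apply, ← mulVec_mulVec, hPj, hD, hPφ, hφ, QuadraticMap.smul_apply, hQ', smul_eq_mul]
    push_cast
    ring
  refine ⟨⟨(k : Matrix ι ι F) * P.map j, P'.map j * ((k⁻¹ : GL ι F) : Matrix ι ι F), ?_, ?_, Units.mk0 _ had, ?_⟩, l, ?_⟩
  · calc (k : Matrix ι ι F) * P.map j * (P'.map j * ((k⁻¹ : GL ι F) : Matrix ι ι F)) = (k : Matrix ι ι F) * (P.map j * P'.map j) * ((k⁻¹ : GL ι F) : Matrix ι ι F) := by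
          simp only [Matrix.mul_assoc]
      _ = 1 := by rw [e1, Matrix.mul_one, Units.mul_inv]
  · calc P'.map j * ((k⁻¹ : GL ι F) : Matrix ι ι F) * ((k : Matrix ι ι F) * P.map j) = P'.map j * (((k⁻¹ : GL ι F) : Matrix ι ι F) * (k : Matrix ι ι F)) * P.map j := by
          simp only [Matrix.mul_assoc]
      _ = 1 := by rw [Units.inv_mul, Matrix.mul_one, e2]
  · intro v
    exact congrArg (fun D : QuadraticForm F _ => D v) hC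
  · show (g : Matrix ι ι F) * ((k : Matrix ι ι F) * P.map j).map σ = (l : F) • ((k : Matrix ι ι F) * P.map j)
    rw [map_mul']
    have h3 : (P.map j).map σ = P.map j := by
      ext i i'
      exact (P i i').2
    rw [h3, ← Matrix.mul_assoc]
    have h4 := congrArg (fun x : GL ι F => (x : Matrix ι ι F)) hk
    have h5 : (g : Matrix ι ι F) * (k : Matrix ι ι F).map σ = (l : F) • (k : Matrix ι ι F) := by
      rw [← coe_gm, ← Units.val_mul, h4]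
      ext i i'
      exact scal_mul_apply l k i i'
    rw [h5, Matrix.smul_mul]

/-- the transported standard field automorphism -/
theorem Tr.adp_R {e f : Fin 3 → (ι → F)} {u : ι → F} (hG : Gd Q e f u) (t : Tr Q Q') {g : GL ι F} (ht : Adp t σ g)
    (hσ' : (⟨1, σ⟩ : GamL ι' F) ∈ SP Q') (hg : (⟨g, σ⟩ : GamL ι F) ∈ SP Q) : R Q ⟨⟨g, σ⟩, hg⟩ = MulAut.congr t.PO (ph hσ') := by
  unfold ph
  rw [← t.R_gam, R_eq_iff' hG]
  obtain ⟨l, hl⟩ := ht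
  refine ⟨rfl, l, ?_⟩
  apply Units.ext
  show (g : Matrix ι ι F) = ((scal l * (t.gam ⟨1, σ⟩).left : GL ι F) : Matrix ι ι F)
  have h1 : (((t.gam ⟨1, σ⟩).left : GL ι F) : Matrix ι ι F) = t.K * t.L.map σ := by
    rw [t.gam_left]
    show t.K * ((1 : GL ι' F) : Matrix ι' ι' F) * t.L.map σ = _
    rw [Units.val_one, Matrix.mul_one]
  have h2 : ((scal l * (t.gam ⟨1, σ⟩).left : GL ι F) : Matrix ι ι F) = (l : F) • (t.K * t.L.map σ) := by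
    rw [← h1]
    ext i i'
    exact scal_mul_apply l _ i i'
  rw [h2, ← Matrix.smul_mul, ← hl, Matrix.mul_assoc, t.KLσ, Matrix.mul_one]

/-- composites of adapted transports -/
theorem adp_comp (t₁ t₂ : Tr Q Q') {g₁ g₂ : GL ι F} (h₁ : Adp t₁ σ g₁) (h₂ : Adp t₂ σ g₂) {ρ : GL ι' F} (hρ : gm σ ρ = ρ) (hρ' : ρ ∈ GOs Q') :
    ∃ (z : GL ι F) (l : Fˣ), z ∈ GOs Q ∧ (z : Matrix ι ι F) = t₂.K * (ρ : Matrix ι' ι' F) * t₁.L ∧ g₂ * gm σ z = scal l * (z * g₁) := by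
  obtain ⟨l₁, hl₁⟩ := h₁
  obtain ⟨l₂, hl₂⟩ := h₂
  have hz1 : t₂.K * (ρ : Matrix ι' ι' F) * t₁.L * (t₁.K * ((ρ⁻¹ : GL ι' F) : Matrix ι' ι' F) * t₂.L) = 1 := by
    calc t₂.K * (ρ : Matrix ι' ι' F) * t₁.L * (t₁.K * ((ρ⁻¹ : GL ι' F) : Matrix ι' ι' F) * t₂.L) =
        t₂.K * (ρ : Matrix ι' ι' F) * (t₁.L * t₁.K) * ((ρ⁻¹ : GL ι' F) : Matrix ι' ι' F) * t₂.L := by simp only [Matrix.mul_assoc]
      _ = t₂.K * ((ρ : Matrix ι' ι' F) * ((ρ⁻¹ : GL ι' F) : Matrix ι' ι' F)) * t₂.L := by rw [t₁.LK, Matrix.mul_one]; simp only [Matrix.mul_assoc]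
      _ = 1 := by rw [Units.mul_inv, Matrix.mul_one, t₂.KL]
  have hz2 : (t₁.K * ((ρ⁻¹ : GL ι' F) : Matrix ι' ι' F) * t₂.L) * (t₂.K * (ρ : Matrix ι' ι' F) * t₁.L) = 1 := by
    calc (t₁.K * ((ρ⁻¹ : GL ι' F) : Matrix ι' ι' F) * t₂.L) * (t₂.K * (ρ : Matrix ι' ι' F) * t₁.L) =
        t₁.K * ((ρ⁻¹ : GL ι' F) : Matrix ι' ι' F) * (t₂.L * t₂.K) * (ρ : Matrix ι' ι' F) * t₁.L := by simp only [Matrix.mul_assoc]
      _ = t₁.K * (((ρ⁻¹ : GL ι' F) : Matrix ι' ι' F) * (ρ : Matrix ι' ι' F)) * t₁.L := by rw [t₂.LK, Matrix.mul_one]; simp only [Matrix.mul_assoc]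
      _ = 1 := by rw [Units.inv_mul, Matrix.mul_one, t₁.KL]
  obtain ⟨z, hz⟩ : ∃ z : GL ι F, z = ⟨_, _, hz1, hz2⟩ := ⟨_, rfl⟩
  have hzM : (z : Matrix ι ι F) = t₂.K * (ρ : Matrix ι' ι' F) * t₁.L := by rw [hz]
  refine ⟨z, l₂ * l₁⁻¹, ?_, hzM, ?_⟩
  · obtain ⟨c, hc⟩ := hρ'
    refine ⟨t₂.d * c * t₁.d⁻¹, fun v => ?_⟩
    show Q ((z : Matrix ι ι F) *ᵥ v) = _
    rw [hzM, ← mulVec_mulVec, ← mulVec_mulVec, t₂.hK]
    show _ * Q' ((ρ : Matrix ι' ι' F) *ᵥ (t₁.L *ᵥ v)) = _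
    have h3 : Q' ((ρ : Matrix ι' ι' F) *ᵥ (t₁.L *ᵥ v)) = c * Q' (t₁.L *ᵥ v) := hc _
    rw [h3, t₁.hL, Units.val_mul, Units.val_mul]; ring
  · have hρσ : (ρ : Matrix ι' ι' F).map σ = (ρ : Matrix ι' ι' F) := by
      rw [← coe_gm, hρ]
    -- `L₁ g₁ = l₁ L₁^σ`
    have h3 : t₁.L * (g₁ : Matrix ι ι F) = (l₁ : F) • t₁.L.map σ := by
      calc t₁.L * (g₁ : Matrix ι ι F) = t₁.L * ((g₁ : Matrix ι ι F) * (t₁.K.map σ * t₁.L.map σ)) := by rw [t₁.KLσ, Matrix.mul_one]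
        _ = t₁.L * ((g₁ : Matrix ι ι F) * t₁.K.map σ) * t₁.L.map σ := by simp only [Matrix.mul_assoc]
        _ = (l₁ : F) • t₁.L.map σ := by rw [hl₁, Matrix.mul_smul, t₁.LK, Matrix.smul_mul, Matrix.one_mul]
    have h4 : (z : Matrix ι ι F) * (g₁ : Matrix ι ι F) = (l₁ : F) • (t₂.K * (ρ : Matrix ι' ι' F) * t₁.L.map σ) := by
      rw [hzM, Matrix.mul_assoc, h3, Matrix.mul_smul]
    have h5 : (g₂ : Matrix ι ι F) * (z : Matrix ι ι F).map σ = (l₂ : F) • (t₂.K * (ρ : Matrix ι' ι' F) * t₁.L.map σ) := by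
      rw [hzM, map_mul', map_mul', hρσ, Matrix.mul_assoc, ← Matrix.mul_assoc, hl₂, Matrix.smul_mul, Matrix.mul_assoc]
    apply Units.ext
    rw [Units.val_mul, coe_gm, h5]
    ext i i'
    have h6 : ((z * g₁ : GL ι F) : Matrix ι ι F) i i' = (l₁ : F) * (t₂.K * (ρ : Matrix ι' ι' F) * t₁.L.map σ) i i' := by
      rw [Units.val_mul, h4]; rfl
    have h7 : ((l₂ : F) • (t₂.K * (ρ : Matrix ι' ι' F) * t₁.L.map σ)) i i' = (l₂ : F) * (t₂.K * (ρ : Matrix ι' ι' F) * t₁.L.map σ) i i' := rfl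
    rw [scal_mul_apply, h6, h7, Units.val_mul, Units.val_inv_eq_inv_val]
    have := l₁.ne_zero
    field_simp

/-- the parity is determined by the model -/
theorem adp_ep (h : Ea Q n) (hσ : ∀ v, Q (σ ∘ v) = σ (Q v)) (t₁ t₂ : Tr Q Q') {g₁ g₂ : GOs Q} (h₁ : Adp t₁ σ (g₁ : GL ι F)) (h₂ : Adp t₂ σ (g₂ : GL ι F)) :
    h.ep g₁ = h.ep g₂ := by
  obtain ⟨z, l, hz, -, hzz⟩ := adp_comp t₁ t₂ h₁ h₂ (ρ := 1) (map_one _) (one_mem _)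
  have hgz : gm σ z ∈ GOs Q := gm_GOs (std_mem hσ) hz
  have h1 := congrArg h.ep (show g₂ * ⟨gm σ z, hgz⟩ = ⟨scal l, scal_mem l⟩ * (⟨z, hz⟩ * g₁) from Subtype.ext hzz)
  rw [map_mul, map_mul, map_mul, h.ep_scal, one_mul, h.ep_gm (std_mem hσ) ⟨z, hz⟩ hgz, mul_comm] at h1
  exact (mul_left_cancel h1).symm

/-- conjugacy under the inner-diagonal group -/
theorem adp_conj {e f : Fin 3 → (ι → F)} {u : ι → F} (hG : Gd Q e f u) (h : Ea Q n) (h' : Ea Q' n)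
    {w : ι' → F} (hw : σ ∘ w = w) (hw' : Q' w ≠ 0) (hσ' : ∀ v, Q' (σ ∘ v) = σ (Q' v)) (t₁ t₂ : Tr Q Q') {g₁ g₂ : GL ι F}
    (h₁ : Adp t₁ σ g₁) (h₂ : Adp t₂ σ g₂) (hg₁ : (⟨g₁, σ⟩ : GamL ι F) ∈ SP Q) (hg₂ : (⟨g₂, σ⟩ : GamL ι F) ∈ SP Q) :
    Cfsg.IsConjUnder (rho h.Gam h.Gam_le).range (R Q ⟨_, hg₁⟩) (R Q ⟨_, hg₂⟩) := by
  obtain ⟨z, l, hz, hzz⟩ : ∃ (z : GL ι F) (l : Fˣ), z ∈ h.Gam ∧ g₂ * gm σ z = scal l * (z * g₁) := by
    obtain ⟨z₁, l₁, hz₁, hzM₁, hzz₁⟩ := adp_comp t₁ t₂ h₁ h₂ (ρ := 1) (map_one _) (one_mem _)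
    rcases Int.units_eq_one_or (h.ep ⟨z₁, hz₁⟩) with hp | hp
    · exact ⟨z₁, l₁, h.mem_Gam.2 ⟨hz₁, hp⟩, hzz₁⟩
    · obtain ⟨z₂, l₂, hz₂, hzM₂, hzz₂⟩ := adp_comp t₁ t₂ h₁ h₂ (ρ := ((rfM Q' w hw' : Cfsg.isometryGroup F ⇑Q') : GL ι' F)) (gm_rfM hσ' hw hw') (iso_le (rfM Q' w hw').2)
      refine ⟨z₂, l₂, h.mem_Gam.2 ⟨hz₂, ?_⟩, hzz₂⟩
      have h3 : (⟨z₂, hz₂⟩ : GOs Q) = ⟨t₂.gl ((rfM Q' w hw' : Cfsg.isometryGroup F ⇑Q') : GL ι' F), t₂.gl_GOs (iso_le (rfM Q' w hw').2)⟩ * ⟨z₁, hz₁⟩ := by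
        apply Subtype.ext
        apply Units.ext
        rw [Subgroup.coe_mul, Units.val_mul]
        show (z₂ : Matrix ι ι F) = ((t₂.gl ((rfM Q' w hw' : Cfsg.isometryGroup F ⇑Q') : GL ι' F) : GL ι F) : Matrix ι ι F) * (z₁ : Matrix ι ι F)
        rw [t₂.gl_coe, hzM₁, hzM₂, Units.val_one, Matrix.mul_one]
        calc t₂.K * (((rfM Q' w hw' : Cfsg.isometryGroup F ⇑Q') : GL ι' F) : Matrix ι' ι' F) * t₁.L =
            t₂.K * (((rfM Q' w hw' : Cfsg.isometryGroup F ⇑Q') : GL ι' F) : Matrix ι' ι' F) * (1 : Matrix ι' ι' F) * t₁.L := by rw [Matrix.mul_one]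
          _ = _ := by rw [← t₂.LK]; simp only [Matrix.mul_assoc]
      rw [h3, map_mul, hp]
      have h4 := t₂.ep_gl h h' (rfG w hw')
      have h5 : (⟨t₂.gl ((rfM Q' w hw' : Cfsg.isometryGroup F ⇑Q') : GL ι' F), t₂.gl_GOs (iso_le (rfM Q' w hw').2)⟩ : GOs Q) =
        ⟨t₂.gl ((rfG w hw' : GOs Q') : GL ι' F), t₂.gl_GOs (rfG w hw').2⟩ := rfl
      rw [h5, h4, h'.ep_rfG]; rfl
  refine ⟨rho h.Gam h.Gam_le ⟨z, hz⟩, ⟨_, rfl⟩, ?_⟩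
  rw [eq_mul_inv_iff_mul_eq, rho_def, ← map_mul, ← map_mul, R_eq_iff' hG]
  refine ⟨?_, l, ?_⟩
  · show σ * 1 = 1 * σ
    rw [mul_one, one_mul]
  · show g₂ * gm σ z = scal l * (z * gm (1 : F ≃+* F) g₁)
    have h3 : gm (1 : F ≃+* F) g₁ = g₁ := Units.ext (by ext i j; rfl)
    rw [h3]
    exact hzz

/-- Lang's theorem: the descended form -/
theorem lang_form [Nonempty ι] {e f : Fin 3 → (ι → F)} {u : ι → F} (hG : Gd Q e f u) (hσ : ∀ v, Q (σ ∘ v) = σ (Q v)) {r : ℕ} (hr : 0 < r) (ho : orderOf σ = r)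
    {g : GL ι F} (hg : (⟨g, σ⟩ : GamL ι F) ∈ SP Q) (hgr : R Q ⟨_, hg⟩ ^ r = 1) :
    ∃ (l : Fˣ) (k : GL ι F) (a : F) (D₀ : QuadraticForm (fixF σ) (ι → fixF σ)), g * gm σ k = scal l * k ∧ a ≠ 0 ∧ (QuadraticMap.polarBilin D₀).Nondegenerate ∧
      ∀ x, Q ((k : Matrix ι ι F) *ᵥ jv σ x) = a * (D₀ x : F) := by
  rw [← map_pow, R_ker' hG] at hgr
  obtain ⟨-, u, hu⟩ := hgr
  have h1 : ((⟨⟨g, σ⟩, hg⟩ : SP Q) ^ r : SP Q).1 = ⟨nrm σ g r, σ ^ r⟩ := by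
    rw [← gam_pow]; rfl
  rw [h1] at hu
  obtain ⟨l, k, hk⟩ := lang_matrix hr ho (g := g) (u := u) hu
  have hgG : g ∈ GOs Q := by
    rw [← inl_mem_iff]
    have : (SemidirectProduct.inl g : GamL ι F) = ⟨g, σ⟩ * (⟨1, σ⟩ : GamL ι F)⁻¹ := by
      rw [eq_mul_inv_iff_mul_eq]
      apply SemidirectProduct.ext
      · show g * gm 1 1 = g
        rw [map_one, mul_one]
      · show 1 * σ = σ
        rw [one_mul]
    rw [this]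
    exact mul_mem hg (inv_mem (std_mem hσ))
  obtain ⟨μ, hμ⟩ := hgG
  obtain ⟨a, D₀, ha, hD₀, -, hk0⟩ := hform_gen hG.nd hσ hμ hk
  exact ⟨l, k, a, D₀, hk, ha, hD₀, hk0⟩

end lang

end CfsgLib.Eps27
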