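import Cfsg.Agent.LibEps27d
import Cfsg.Agent.LibAutPSL27l

set_option autoImplicit false

/-! Field automorphisms of even-dimensional orthogonal groups: odd order, minus type. -/

namespace CfsgLib.Eps27

open Cfsg.Agent.H22 CfsgLib.Semi27 CfsgLib.Lift27 CfsgLib.RhoO27 CfsgLib.AutO27 CfsgLib.Spinor27 CfsgLib.Even27 CfsgLib.Min27 CfsgLib.H9027 CfsgLib.QForm27 CfsgLib.Desc27 Module Matrix

universe u

theorem qPlus_j {F₀ F : Type*} [Field F₀] [Field F] {m : ℕ} (j : F₀ →+* F) (x : Fin m ⊕ Fin m → F₀) : qPlus m F (j ∘ x) = j (qPlus m F₀ x) := by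
  rw [coe_qPlus, coe_qPlus]
  unfold Cfsg.quadFormPlus
  simp [map_sum]

section notr
variable {F : Type u} [Field F] [Fintype F] {m : ℕ} {a b : F}

/-- the anisotropic form is not hyperbolic -/
theorem no_tr (hab : ∀ z₁ z₂ : F, z₁ ^ 2 + a * z₁ * z₂ + b * z₂ ^ 2 = 0 → z₁ = 0 ∧ z₂ = 0) (t : Tr (qMinus m F a b) (qPlus (m + 1) F)) : False := by
  have hfp : ∀ i j : Fin (m + 1), QuadraticMap.polar (qPlus (m + 1) F) (Pi.single (.inl i) 1) (Pi.single (.inr j) 1) = if i = j then 1 else 0 := by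
    intro i j
    rw [polar_qPlus]
    by_cases h : i = j
    · subst h; simp [Pi.single_apply]
    · simp [Pi.single_apply, h, Ne.symm h]
  have hpol : ∀ x y, QuadraticMap.polar (qMinus m F a b) (t.K *ᵥ x) (t.K *ᵥ y) = t.d * QuadraticMap.polar (qPlus (m + 1) F) x y := by
    intro x y
    unfold QuadraticMap.polar
    rw [← mulVec_add, t.hK, t.hK, t.hK]; ring
  have hd : (t.d : F) ≠ 0 := t.d.ne_zero
  apply no_fam hab (s := fun i => (t.K *ᵥ Pi.single (.inl i) 1, (t.d : F)⁻¹ • (t.K *ᵥ Pi.single (.inr i) 1)))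
  refine ⟨fun i => ⟨?_, ?_⟩, fun i j => ⟨?_, ?_, ?_⟩⟩
  · rw [t.hK, coe_qPlus]; unfold Cfsg.quadFormPlus; simp [Pi.single_apply]
  · rw [qsmul, t.hK, coe_qPlus]; unfold Cfsg.quadFormPlus; simp [Pi.single_apply]
  · rw [hpol, polar_qPlus]; simp [Pi.single_apply]
  · rw [QuadraticMap.polar_smul_left, QuadraticMap.polar_smul_right, hpol, polar_qPlus]; simp [Pi.single_apply]
  · rw [QuadraticMap.polar_smul_right, hpol, hfp, smul_eq_mul, ← mul_assoc, inv_mul_cancel₀ hd, one_mul]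

end notr

section refl
variable {F : Type u} [Field F] {ι : Type} [Fintype ι] [DecidableEq ι]

/-- the identity -/
def Tr.rfl' (Q : QuadraticForm F (ι → F)) : Tr Q Q := ⟨1, 1, Matrix.one_mul 1, Matrix.one_mul 1, 1, fun v => by rw [one_mulVec, Units.val_one, one_mul]⟩

theorem adp_rfl (Q : QuadraticForm F (ι → F)) (σ : F ≃+* F) : Adp (Tr.rfl' Q) σ 1 := by
  refine ⟨1, ?_⟩
  show ((1 : GL ι F) : Matrix ι ι F) * (1 : Matrix ι ι F).map σ = ((1 : Fˣ) : F) • (1 : Matrix ι ι F)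
  rw [map_one', Units.val_one, Units.val_one, Matrix.one_mul, one_smul]

end refl

section minus
variable {F : Type u} [Field F] [Fintype F] {m : ℕ} {a b : F} {σ : F ≃+* F}

theorem minus_σ (ha : σ a = a) (hb : σ b = b) (v : (Fin m ⊕ Fin m) ⊕ Fin 2 → F) : qMinus m F a b (σ ∘ v) = σ (qMinus m F a b v) := by
  have := qMinus_j (m := m) (σ : F →+* F) a b v
  have e1 : (σ : F →+* F) a = a := ha
  have e2 : (σ : F →+* F) b = b := hb
  rw [e1, e2] at this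
  exact this

/-- semisimilarities of the anisotropic form are conjugate to standard ones -/
theorem minus_adp (hm : 3 ≤ m) (hab : ∀ z₁ z₂ : F, z₁ ^ 2 + a * z₁ * z₂ + b * z₂ ^ 2 = 0 → z₁ = 0 ∧ z₂ = 0) (ha : σ a = a) (hb : σ b = b)
    {r : ℕ} (hr : 0 < r) (ho : orderOf σ = r) {g : GL ((Fin m ⊕ Fin m) ⊕ Fin 2) F} (hg : (⟨g, σ⟩ : GamL ((Fin m ⊕ Fin m) ⊕ Fin 2) F) ∈ SP (qMinus m F a b))
    (hgr : R (qMinus m F a b) ⟨_, hg⟩ ^ r = 1) : ∃ t : Tr (qMinus m F a b) (qMinus m F a b), Adp t σ g := by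
  obtain ⟨e, f, u, hG⟩ := gd_qMinus (m := m) hm (disc_ne_zero a b hab)
  obtain ⟨l, k, c, D₀, hk, hc, hD₀, hD⟩ := lang_form hG (minus_σ ha hb) hr ho hg hgr
  haveI := Fintype.ofFinite (fixF σ)
  rcases even_coord (m := m) hD₀ (by simp; omega) with ⟨φ, hφ⟩ | hcl
  · exfalso
    obtain ⟨t, -⟩ := build_tr (σ := σ) (Q' := qPlus (m + 1) F) (Q₀' := qPlus (m + 1) (fixF σ)) (fun x => qPlus_j (fixF σ).subtype x) hk hc hD φ one_ne_zero
      (fun x => by rw [hφ, one_mul])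
    exact no_tr hab t
  · obtain ⟨d, φ, hd, hφ⟩ := hcl ⟨a, ha⟩ ⟨b, hb⟩ (by
      intro z₁ z₂ hz
      have h1 := hab z₁ z₂ (congrArg Subtype.val hz)
      exact ⟨Subtype.ext h1.1, Subtype.ext h1.2⟩)
    exact build_tr (σ := σ) (Q' := qMinus m F a b) (Q₀' := qMinus m (fixF σ) ⟨a, ha⟩ ⟨b, hb⟩) (fun x => qMinus_j (fixF σ).subtype ⟨a, ha⟩ ⟨b, hb⟩ x) hk hc hD φ hd hφ

/-- change of the binary part -/
theorem minus_tr {a' b' : F} (hab : ∀ z₁ z₂ : F, z₁ ^ 2 + a * z₁ * z₂ + b * z₂ ^ 2 = 0 → z₁ = 0 ∧ z₂ = 0)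
    (hab' : ∀ z₁ z₂ : F, z₁ ^ 2 + a' * z₁ * z₂ + b' * z₂ ^ 2 = 0 → z₁ = 0 ∧ z₂ = 0) : Nonempty (Tr (qMinus m F a b) (qMinus m F a' b')) := by
  obtain ⟨s, t, ht, ha, hb⟩ := quad_equiv hab' hab
  refine ⟨⟨fromBlocks 1 0 0 !![1, s; 0, t], fromBlocks 1 0 0 !![1, -s / t; 0, t⁻¹], ?_, ?_, 1, ?_⟩⟩
  · rw [fromBlocks_multiply]
    simp only [Matrix.mul_zero, Matrix.zero_mul, add_zero, zero_add, Matrix.one_mul]
    have : (!![1, s; 0, t] : Matrix (Fin 2) (Fin 2) F) * !![1, -s / t; 0, t⁻¹] = 1 := by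
      ext i j
      fin_cases i <;> fin_cases j <;> simp [ht] <;> field_simp <;> ring
    rw [this, fromBlocks_one]
  · rw [fromBlocks_multiply]
    simp only [Matrix.mul_zero, Matrix.zero_mul, add_zero, zero_add, Matrix.one_mul]
    have : (!![1, -s / t; 0, t⁻¹] : Matrix (Fin 2) (Fin 2) F) * !![1, s; 0, t] = 1 := by
      ext i j
      fin_cases i <;> fin_cases j <;> simp [ht] <;> field_simp <;> ring
    rw [this, fromBlocks_one]
  · intro v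
    rw [fromBlocks_mulVec, coe_qMinus, coe_qMinus, Units.val_one, one_mul]
    unfold Cfsg.quadFormMinus
    simp only [Sum.elim_inl, Sum.elim_inr, zero_mulVec, one_mulVec, add_zero, zero_add, Function.comp_apply]
    have e0 : ((!![1, s; 0, t] : Matrix (Fin 2) (Fin 2) F) *ᵥ (v ∘ Sum.inr)) 0 = v (.inr 0) + s * v (.inr 1) := by
      simp [Matrix.mulVec, dotProduct, Fin.sum_univ_two]
    have e1 : ((!![1, s; 0, t] : Matrix (Fin 2) (Fin 2) F) *ᵥ (v ∘ Sum.inr)) 1 = t * v (.inr 1) := by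
      simp [Matrix.mulVec, dotProduct, Fin.sum_univ_two]
    rw [e0, e1, ha, hb]
    ring

/-- isomorphisms preserve the inner-diagonal group -/
theorem minus_inndiag (hm : 3 ≤ m) {a' b' : F} (hab : ∀ z₁ z₂ : F, z₁ ^ 2 + a * z₁ * z₂ + b * z₂ ^ 2 = 0 → z₁ = 0 ∧ z₂ = 0)
    (hab' : ∀ z₁ z₂ : F, z₁ ^ 2 + a' * z₁ * z₂ + b' * z₂ ^ 2 = 0 → z₁ = 0 ∧ z₂ = 0) (h : Ea (qMinus m F a b) (m + 1)) (h' : Ea (qMinus m F a' b') (m + 1))
    (ψ : Cfsg.POmega F ⇑(qMinus m F a b) ≃* Cfsg.POmega F ⇑(qMinus m F a' b')) (β : MulAut (Cfsg.POmega F ⇑(qMinus m F a b))) :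
    MulAut.congr ψ β ∈ (rho h'.Gam h'.Gam_le).range ↔ β ∈ (rho h.Gam h.Gam_le).range := by
  obtain ⟨t⟩ := minus_tr (m := m) hab hab'
  obtain ⟨β', rfl⟩ := (MulAut.congr t.PO).surjective β
  obtain ⟨α, hα⟩ : ∃ α : MulAut (Cfsg.POmega F ⇑(qMinus m F a' b')), α = t.PO.trans ψ := ⟨_, rfl⟩
  have h1 : MulAut.congr ψ (MulAut.congr t.PO β') = α * β' * α⁻¹ := by
    rw [hα]
    rfl
  obtain ⟨e, f, u, hG⟩ := good_qMinus hm a' b' hab'
  rw [h1, t.map_range h h']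
  constructor
  · intro h3
    have h4 := h'.rho_normal hG α⁻¹ _ h3
    have h5 : α⁻¹ * (α * β' * α⁻¹) * α⁻¹⁻¹ = β' := by group
    rwa [h5] at h4
  · exact h'.rho_normal hG α β'

end minus

section cover
variable {F : Type u} [Field F] [Fintype F] {ι : Type} [Fintype ι] [DecidableEq ι] {Q : QuadraticForm F (ι → F)} {n : ℕ} {σ : F ≃+* F}
  {Q₀ : QuadraticForm (fixF σ) (ι → fixF σ)} {e f : Fin 3 → (ι → F)} {u : ι → F}

/-- rational similarities cover the inner-diagonal classes, odd degree -/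
theorem odd_cover [Fintype (fixF σ)] (h : Ev Q n) (h₀ : Ev Q₀ n) (hG : Gd Q e f u) (hj : ∀ x, Q (jv σ x) = (Q₀ x : F)) (hσ : ∀ v, Q (σ ∘ v) = σ (Q v))
    {r : ℕ} (ho : orderOf σ = r) (hr : Odd r) (z : GOs Q) (hz : h.eps z = 1) : ∃ y : GOs Q, gm σ (y : GL ι F) = y ∧ y⁻¹ * z ∈ KI Q := by
  obtain ⟨c, hc⟩ := h₀.exists_nonsq
  have hc' : ¬ IsSquare ((c : fixF σ) : F) := fun hs => hc (square_of_odd_order ho hr _ hs)
  have hj' : ∀ x : ι → fixF σ, Q ((fixF σ).subtype ∘ x) = (fixF σ).subtype (Q₀ x) := hj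
  obtain ⟨y₁, hy₁, hch⟩ : ∃ y₁ : GOs Q, gm σ (y₁ : GL ι F) = y₁ ∧ h.ch y₁ = h.ch z := by
    rcases Int.units_eq_one_or (h.cl z) with h1 | h1
    · exact ⟨1, map_one _, by rw [map_one]; exact (Prod.ext hz h1).symm⟩
    · obtain ⟨D, hD, hDe⟩ := h₀.exists_sim c
      have hspec := lift_mult (fixF σ).subtype hj' (mu_spec h₀.hx D)
      have hmem : Matrix.GeneralLinearGroup.map (fixF σ).subtype (D : GL ι (fixF σ)) ∈ GOs Q := map_GOs (fixF σ).subtype hj' D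
      have hmu : mu h.hx ⟨_, hmem⟩ = Units.map ((fixF σ).subtype : fixF σ →* F) (mu h₀.hx D) := mu_eq _ hspec
      refine ⟨⟨_, hmem⟩, ?_, ?_⟩
      · apply Units.ext
        ext i k
        exact (((D : GL ι (fixF σ)) : Matrix ι ι (fixF σ)) i k).2
      · apply Prod.ext
        · show h.eps _ = h.eps z
          rw [hz, Ev.eps_eq_one, hmu]
          show (Matrix.GeneralLinearGroup.map (fixF σ).subtype (D : GL ι (fixF σ)) : GL ι F).det = _
          rw [det_map_gl, (h₀.eps_eq_one D).1 hDe, map_pow]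
        · show h.cl _ = h.cl z
          rw [h1, h.cl_apply, hmu, hD, chi_eq_neg]
          exact hc'
  obtain ⟨k, hk⟩ : ∃ k, k = y₁⁻¹ * z := ⟨_, rfl⟩
  have hk1 : h.ch k = 1 := by rw [hk, map_mul, map_inv, hch, inv_mul_cancel]
  by_cases hkK : k ∈ KI Q
  · exact ⟨y₁, hy₁, by rw [← hk]; exact hkK⟩
  · have hneg : NegIn Q := by
      by_contra hneg
      have h1 : h.ch.ker ≤ KI Q := Subgroup.relIndex_eq_one.1 ((h.KI_relIndex hG).2 hneg)
      exact hkK (h1 (MonoidHom.mem_ker.2 hk1))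
    obtain ⟨v, hv⟩ := exists_norm_odd h₀.h2 h₀.nd h₀.fr 1
    obtain ⟨w, hw⟩ := exists_norm_odd h₀.h2 h₀.nd h₀.fr (c : fixF σ)
    have hv' : Q (jv σ v) ≠ 0 := by rw [hj, hv]; exact one_ne_zero
    have hw' : Q (jv σ w) ≠ 0 := by
      rw [hj, hw]
      exact fun h => c.ne_zero (Subtype.ext h)
    have hvw : chi (Q (jv σ v)) * chi (Q (jv σ w)) = -1 := by
      rw [hj, hj, hv, hw]
      have : (((1 : fixF σ) : F)) = 1 := rfl
      rw [this, chi_one, one_mul, chi_eq_neg]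
      exact hc'
    have hs0 := h.z_notMem hG hneg hv' hw' hvw
    have hch0 : h.ch (rfG (jv σ v) hv' * rfG (jv σ w) hw') = 1 := by
      apply Prod.ext
      · show h.eps _ = 1
        rw [map_mul, h.eps_rfG, h.eps_rfG]; rfl
      · show h.cl _ = 1
        rw [map_mul, h.cl_rfG, h.cl_rfG]; rfl
    refine ⟨y₁ * (rfG (jv σ v) hv' * rfG (jv σ w) hw'), ?_, ?_⟩
    · rw [Subgroup.coe_mul, map_mul, hy₁, Subgroup.coe_mul, map_mul]
      congr 1
      have e1 : gm σ ((rfG (jv σ v) hv' : GOs Q) : GL ι F) = ((rfG (jv σ v) hv' : GOs Q) : GL ι F) := gm_rfM hσ (jv_fixed v) hv'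
      have e2 : gm σ ((rfG (jv σ w) hw' : GOs Q) : GL ι F) = ((rfG (jv σ w) hw' : GOs Q) : GL ι F) := gm_rfM hσ (jv_fixed w) hw'
      rw [e1, e2]
    · have h1 : (y₁ * (rfG (jv σ v) hv' * rfG (jv σ w) hw'))⁻¹ * z = (rfG (jv σ v) hv' * rfG (jv σ w) hw')⁻¹ * k := by
        rw [hk]; group
      rw [h1]
      exact ker_class h hG hch0 hk1 ⟨fun h3 => absurd h3 hs0, fun h3 => absurd h3 hkK⟩

/-- the class of an odd-order field automorphism does not split -/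
theorem odd_split [Fintype (fixF σ)] (h : Ea Q n) (h₀ : Ea Q₀ n) (hG : Gd Q e f u) (hj : ∀ x, Q (jv σ x) = (Q₀ x : F)) (hσ : ∀ v, Q (σ ∘ v) = σ (Q v))
    {r : ℕ} (ho : orderOf σ = r) (hr : Odd r) : Cfsg.splitClassCount (rho h.Gam h.Gam_le).range (Cfsg.Inn (Cfsg.POmega F ⇑Q)) (ph (std_mem hσ)) = 1 := by
  have hinn : ∀ y : GOs Q, y ∈ KI Q → rho (GOs Q) le_rfl y ∈ Cfsg.Inn (Cfsg.POmega F ⇑Q) := fun y hy => hy
  apply splitCount_one
  · rintro _ ⟨y, rfl⟩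
    obtain ⟨s, rfl⟩ := QuotientGroup.mk_surjective y
    refine ⟨⟨s.1, h.mem_Gam.2 ⟨iso_le s.1.2, ?_⟩⟩, (conj_mk s).symm⟩
    rw [h.ep_iso, par_omega]
  · rintro _ ⟨g, rfl⟩
    obtain ⟨hg1, hg2⟩ := h.mem_Gam.1 g.2
    by_cases h2 : (2 : F) = 0
    · refine ⟨_, ?_, 1, by rw [mul_one, one_mul], (mul_one _).symm⟩
      haveI := charP_two h2
      obtain ⟨s, t, ht⟩ := two_split' h2 ⟨g.1, hg1⟩
      rw [h.ep_two h2 ht, ← two_omega h.nd h.hF h.hx] at hg2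
      rw [rho_def, mem_inn' hG]
      exact ⟨rfl, s, ⟨t, hg2⟩, ht⟩
    · have h20 : (2 : fixF σ) ≠ 0 := fun h3 => h2 (congrArg Subtype.val h3)
      obtain ⟨y, hy, hyK⟩ := odd_cover (h.ev h2) (h₀.ev h20) hG hj hσ ho hr ⟨g.1, hg1⟩ (by rw [← h.ep_odd h2]; exact hg2)
      have hyK' : (⟨g.1, hg1⟩ : GOs Q) * y⁻¹ ∈ KI Q := by
        have := (inferInstance : (KI Q).Normal).conj_mem _ hyK y
        have h5 : y * (y⁻¹ * ⟨g.1, hg1⟩) * y⁻¹ = (⟨g.1, hg1⟩ : GOs Q) * y⁻¹ := by group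
        rwa [h5] at this
      refine ⟨_, hinn _ hyK', rho (GOs Q) le_rfl y, ?_, ?_⟩
      · rw [ph_mul_rho (GOs Q) le_rfl (std_mem hσ) (fun g hg => gm_GOs (std_mem hσ) hg)]
        congr 2
        exact Subtype.ext hy.symm
      · rw [← map_mul, inv_mul_cancel_right]; rfl

end cover

end CfsgLib.Eps27
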