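import Cfsg.Agent.LibSpinApp27
import Cfsg.Agent.LibH22SL

set_option autoImplicit false

/-! The Levi subgroup of the stabiliser of a maximal singular subspace. -/

namespace CfsgLib.Spinor27

open Cfsg.Agent.H22 Module Matrix

section
variable {F : Type*} [Field F] {m : ℕ}

theorem qPlus_dot (x : Fin m ⊕ Fin m → F) : qPlus m F x = (x ∘ Sum.inl) ⬝ᵥ (x ∘ Sum.inr) := by
  rw [coe_qPlus]; rfl

theorem blocks_Q {A D : Matrix (Fin m) (Fin m) F} (h : Aᵀ * D = 1) (x : Fin m ⊕ Fin m → F) :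
    qPlus m F (Matrix.fromBlocks A 0 0 D *ᵥ x) = qPlus m F x := by
  rw [qPlus_dot, qPlus_dot, Matrix.fromBlocks_mulVec]
  simp only [Sum.elim_comp_inl, Sum.elim_comp_inr, Matrix.zero_mulVec, add_zero, zero_add]
  rw [Matrix.dotProduct_mulVec, Matrix.vecMul_mulVec, h, Matrix.vecMul_one]

theorem blocks_of_Q {A D : Matrix (Fin m) (Fin m) F} (h : ∀ x, qPlus m F (Matrix.fromBlocks A 0 0 D *ᵥ x) = qPlus m F x) :
    Aᵀ * D = 1 := by
  ext i j
  have h1 := h (Sum.elim (Pi.single i 1) (Pi.single j 1))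
  rw [qPlus_dot, qPlus_dot, Matrix.fromBlocks_mulVec] at h1
  simp only [Sum.elim_comp_inl, Sum.elim_comp_inr, Matrix.zero_mulVec, add_zero, zero_add] at h1
  rw [Matrix.dotProduct_mulVec, Matrix.vecMul_mulVec, ← Matrix.dotProduct_mulVec, Matrix.mulVec_single_one, single_one_dotProduct,
    single_one_dotProduct] at h1
  rw [show (Aᵀ * D) i j = (Aᵀ * D).col j i from rfl, h1, Matrix.one_apply, Pi.single_apply]

theorem ker_finrank (M : Matrix (Fin m) (Fin m) F) : M.rank + finrank F (LinearMap.ker M.mulVecLin) = m := by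
  have := M.mulVecLin.finrank_range_add_finrank_ker
  rw [Module.finrank_pi, Fintype.card_fin] at this
  exact this

theorem par_blocks {A D : Matrix (Fin m) (Fin m) F} (g : OGrp (qPlus m F)) (hg : ∀ x, g.1 x = Matrix.fromBlocks A 0 0 D *ᵥ x) :
    parFun g = 1 := by
  have hAD : Aᵀ * D = 1 := blocks_of_Q fun x => by rw [← hg]; exact og_Q g x
  have hDA : D * Aᵀ = 1 := mul_eq_one_comm.1 hAD
  have hmem : ∀ x : Fin m ⊕ Fin m → F, x ∈ fixSp g ↔ A *ᵥ (x ∘ Sum.inl) = x ∘ Sum.inl ∧ Aᵀ *ᵥ (x ∘ Sum.inr) = x ∘ Sum.inr := by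
    intro x
    rw [mem_fixSp, hg, Matrix.fromBlocks_mulVec]
    simp only [Matrix.zero_mulVec, add_zero, zero_add]
    constructor
    · intro h
      constructor
      · have := congrArg (fun y => y ∘ Sum.inl) h
        simpa using this
      · have := congrArg (fun y => y ∘ Sum.inr) h
        simp only [Sum.elim_comp_inr] at this
        rw [← this, Matrix.mulVec_mulVec, hAD, Matrix.one_mulVec, this]
    · rintro ⟨h1, h3⟩
      have h4 : D *ᵥ (x ∘ Sum.inr) = x ∘ Sum.inr := by
        conv_lhs => rw [← h3]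
        rw [Matrix.mulVec_mulVec, hDA, Matrix.one_mulVec]
      rw [h1, h4, Sum.elim_comp_inl_inr]
  have k1 : ∀ y, y ∈ LinearMap.ker (A - 1).mulVecLin ↔ A *ᵥ y = y := fun y => by
    rw [LinearMap.mem_ker, Matrix.mulVecLin_apply, Matrix.sub_mulVec, Matrix.one_mulVec, sub_eq_zero]
  have k2 : ∀ y, y ∈ LinearMap.ker (A - 1)ᵀ.mulVecLin ↔ Aᵀ *ᵥ y = y := fun y => by
    rw [LinearMap.mem_ker, Matrix.mulVecLin_apply, Matrix.transpose_sub, Matrix.transpose_one, Matrix.sub_mulVec, Matrix.one_mulVec, sub_eq_zero]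
  have e : fixSp g ≃ₗ[F] LinearMap.ker (A - 1).mulVecLin × LinearMap.ker (A - 1)ᵀ.mulVecLin :=
    { toFun := fun x => (⟨x.1 ∘ Sum.inl, (k1 _).2 ((hmem x.1).1 x.2).1⟩, ⟨x.1 ∘ Sum.inr, (k2 _).2 ((hmem x.1).1 x.2).2⟩)
      map_add' := fun x y => rfl
      map_smul' := fun c x => rfl
      invFun := fun p => ⟨Sum.elim p.1.1 p.2.1, (hmem _).2 ⟨(k1 _).1 p.1.2, (k2 _).1 p.2.2⟩⟩
      left_inv := fun x => Subtype.ext (Sum.elim_comp_inl_inr _)
      right_inv := fun p => rfl }
  have h1 := e.finrank_eq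
  rw [Module.finrank_prod] at h1
  have h3 := ker_finrank (A - 1)
  have h4 := ker_finrank (A - 1)ᵀ
  rw [Matrix.rank_transpose] at h4
  have h5 : finrank F (fixSp g) + finrank F (Fin m ⊕ Fin m → F) = 2 * (finrank F (LinearMap.ker (A - 1).mulVecLin) + m) := by
    rw [h1, Module.finrank_pi, Fintype.card_sum, Fintype.card_fin]
    omega
  unfold parFun
  rw [h5, pow_mul]
  simp

/-- the Levi element -/
noncomputable def levi : GL (Fin m) F →* OGrp (qPlus m F) :=
  MonoidHom.codRestrict ((glLin (ι := Fin m ⊕ Fin m) (F := F)).toMonoidHom.comp (MonoidHom.toHomUnits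
    { toFun := fun A : GL (Fin m) F => Matrix.fromBlocks (A : Matrix (Fin m) (Fin m) F) 0 0 ((A⁻¹ : GL (Fin m) F) : Matrix (Fin m) (Fin m) F)ᵀ
      map_one' := by simp [Matrix.fromBlocks_one]
      map_mul' := fun A B => by
        rw [Matrix.fromBlocks_multiply]
        simp only [_root_.mul_inv_rev, Units.val_mul, Matrix.transpose_mul, Matrix.mul_zero, Matrix.zero_mul, add_zero, zero_add] })) (OGrp (qPlus m F))
    (fun A x => blocks_Q (by rw [← Matrix.transpose_mul]; simp) x)

theorem levi_apply (A : GL (Fin m) F) (x : Fin m ⊕ Fin m → F) :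
    (levi A).1 x = Matrix.fromBlocks (A : Matrix (Fin m) (Fin m) F) 0 0 ((A⁻¹ : GL (Fin m) F) : Matrix (Fin m) (Fin m) F)ᵀ *ᵥ x := rfl

theorem parFun_levi (A : GL (Fin m) F) : parFun (levi A) = 1 := par_blocks _ (levi_apply A)

theorem levi_inl (A : GL (Fin m) F) (i : Fin m) :
    (levi A).1 (Pi.single (Sum.inl i) 1) = Sum.elim (fun j => (A : Matrix (Fin m) (Fin m) F) j i) (0 : Fin m → F) := by
  rw [levi_apply, Matrix.mulVec_single_one]
  ext (j | j) <;> rfl

theorem levi_inr (A : GL (Fin m) F) (i : Fin m) :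
    (levi A).1 (Pi.single (Sum.inr i) 1) = Sum.elim (0 : Fin m → F) (fun j => ((A⁻¹ : GL (Fin m) F) : Matrix (Fin m) (Fin m) F) i j) := by
  rw [levi_apply, Matrix.mulVec_single_one]
  ext (j | j) <;> rfl

/-- diagonal element with one nontrivial entry -/
noncomputable def dg (i₀ : Fin m) (a : Fˣ) : GL (Fin m) F :=
  ⟨Matrix.diagonal fun i => if i = i₀ then (a : F) else 1, Matrix.diagonal fun i => if i = i₀ then ((a⁻¹ : Fˣ) : F) else 1,
    by
      rw [Matrix.diagonal_mul_diagonal, ← Matrix.diagonal_one]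
      congr 1
      funext i
      split_ifs <;> simp,
    by
      rw [Matrix.diagonal_mul_diagonal, ← Matrix.diagonal_one]
      congr 1
      funext i
      split_ifs <;> simp⟩

theorem dg_det (i₀ : Fin m) (a : Fˣ) : (dg i₀ a : GL (Fin m) F).det = a := by
  apply Units.ext
  show (Matrix.diagonal fun i => if i = i₀ then (a : F) else 1).det = a
  rw [Matrix.det_diagonal, Finset.prod_ite_eq']
  simp

theorem levi_dg_apply (i₀ : Fin m) (a : Fˣ) (x : Fin m ⊕ Fin m → F) :
    (levi (dg i₀ a)).1 x = Sum.elim (fun i => (if i = i₀ then (a : F) else 1) * x (Sum.inl i))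
      (fun i => (if i = i₀ then ((a⁻¹ : Fˣ) : F) else 1) * x (Sum.inr i)) := by
  rw [levi_apply, Matrix.fromBlocks_mulVec]
  simp only [Matrix.zero_mulVec, add_zero, zero_add]
  congr 1
  · funext i
    show (Matrix.diagonal _ *ᵥ _) i = _
    rw [Matrix.mulVec_diagonal]; rfl
  · funext i
    show ((Matrix.diagonal _)ᵀ *ᵥ _) i = _
    rw [Matrix.diagonal_transpose, Matrix.mulVec_diagonal]; rfl

end

section
variable {F : Type*} [Field F] [Fintype F] {m : ℕ}

theorem frm (hm : 1 ≤ m) : 2 ≤ finrank F (Fin m ⊕ Fin m → F) := by simp; omega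

theorem spin_levi_sl (h2 : (2 : F) ≠ 0) (φ : GL (Fin m) F →* ℤˣ) (S : Matrix.SpecialLinearGroup (Fin m) F) :
    φ (S : GL (Fin m) F) = 1 := by
  rcases Nat.lt_or_ge 1 m with h | h
  · haveI : Nontrivial (Fin m) := Fin.nontrivial_iff_two_le.2 h
    induction S using SLn.transvection_induction with
    | htransvec i j h c =>
      have h1 : SpecialLinearGroup.transvection h c = SpecialLinearGroup.transvection h (c / 2) * SpecialLinearGroup.transvection h (c / 2) := by
        rw [← SpecialLinearGroup.transvection_add]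
        congr 1
        field_simp
        ring
      rw [h1, map_mul, map_mul, Int.units_mul_self]
    | hmul A B hA hB => rw [map_mul, map_mul, hA, hB, one_mul]
  · haveI : Subsingleton (Fin m) := Fin.subsingleton_iff_le_one.2 h
    have : S = 1 := Subsingleton.elim _ _
    rw [this, map_one, map_one]

theorem spin_levi (h2 : (2 : F) ≠ 0) (hm : 1 ≤ m) (A : GL (Fin m) F) :
    spin h2 (nondeg_qPlus (F := F) m) (frm hm) (levi A) = chi (A : Matrix (Fin m) (Fin m) F).det := by
  obtain ⟨i₀⟩ : Nonempty (Fin m) := ⟨⟨0, by omega⟩⟩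
  obtain ⟨S, h1⟩ : ∃ S : Matrix.SpecialLinearGroup (Fin m) F, (S : GL (Fin m) F) = A * (dg i₀ A.det)⁻¹ := by
    refine ⟨⟨((A * (dg i₀ A.det)⁻¹ : GL (Fin m) F) : Matrix (Fin m) (Fin m) F), ?_⟩, Units.ext rfl⟩
    have : (A * (dg i₀ A.det)⁻¹ : GL (Fin m) F).det = 1 := by
      rw [map_mul, map_inv, dg_det, mul_inv_cancel]
    exact congrArg Units.val this
  have hs := spin_levi_sl h2 ((spin h2 (nondeg_qPlus (F := F) m) (frm hm)).comp levi) S
  rw [h1, map_mul, map_inv, mul_inv_eq_one] at hs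
  rw [MonoidHom.comp_apply, MonoidHom.comp_apply] at hs
  rw [hs]
  have hHP : HP (qPlus m F) (famPlus m F i₀).1 (famPlus m F i₀).2 :=
    ⟨((qfam_plus m).1 i₀).1, ((qfam_plus m).1 i₀).2, by rw [((qfam_plus m).2 i₀ i₀).2.2, if_pos rfl]⟩
  obtain ⟨k1, k2, hk⟩ := hyp_scale hHP (A.det : F) A.det.ne_zero (levi (dg i₀ A.det)) (by
      rw [levi_dg_apply]
      ext (j | j)
      · by_cases hj : j = i₀
        · subst hj; simp [famPlus]
        · simp [famPlus, hj]
      · simp [famPlus]) (by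
      rw [levi_dg_apply]
      ext (j | j)
      · simp [famPlus]
      · by_cases hj : j = i₀
        · subst hj; simp [famPlus]
        · simp [famPlus, hj]) (by
      intro x h3 h4
      rw [polar_qPlus] at h3 h4
      unfold famPlus at h3 h4
      have h5 : x (Sum.inr i₀) = 0 := by simpa [Pi.single_apply] using h3
      have h6 : x (Sum.inl i₀) = 0 := by simpa [Pi.single_apply] using h4
      rw [levi_dg_apply]
      ext (j | j)
      · by_cases hj : j = i₀
        · subst hj; simp [h6]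
        · simp [hj]
      · by_cases hj : j = i₀
        · subst hj; simp [h5]
        · simp [hj])
  rw [hk, map_mul, spin_refl, spin_refl, ← chi_mul h2 k2 k1]
  have q1 : ∀ b : F, qPlus m F ((famPlus m F i₀).1 - b • (famPlus m F i₀).2) = -b := by
    intro b
    rw [qsub, qsmul, hHP.1, hHP.2.1, QuadraticMap.polar_smul_right, hHP.2.2, smul_eq_mul]; ring
  have q2 := q1 1
  rw [one_smul] at q2
  rw [q1, q2]
  congr 1
  show -1 * -(A : Matrix (Fin m) (Fin m) F).det = (A : Matrix (Fin m) (Fin m) F).det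
  ring

end

end CfsgLib.Spinor27
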