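import Cfsg.Agent.LibCls27
import Cfsg.Agent.LibRhoO27d
import Cfsg.Agent.LibLevi27

set_option autoImplicit false

/-! Similarities preserving the classes of maximal totally singular subspaces. -/

namespace CfsgLib.Even27

open Cfsg.Agent.H22 CfsgLib.Cls27 CfsgLib.Semi27 Module Matrix

section psc
variable {F V : Type*} [Field F] [AddCommGroup V] [Module F V] [FiniteDimensional F V] {Q : QuadraticForm F V}

/-- the conjugate of an isometry by a similarity -/
def conjS (g : V ≃ₗ[F] V) (c : F) (hg : ∀ v, Q (g v) = c * Q v) (h : OGrp Q) : OGrp Q :=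
  ⟨g.symm.trans (h.1.trans g), by
    intro x
    show Q (g (h.1 (g.symm x))) = Q x
    rw [hg, og_Q, ← hg, g.apply_symm_apply]⟩

theorem conjS_apply (g : V ≃ₗ[F] V) (c : F) (hg : ∀ v, Q (g v) = c * Q v) (h : OGrp Q) (x : V) :
    (conjS g c hg h).1 (g x) = g (h.1 x) := by
  show g (h.1 (g.symm (g x))) = _
  rw [g.symm_apply_apply]

theorem finrank_fix_conjS (g : V ≃ₗ[F] V) (c : F) (hg : ∀ v, Q (g v) = c * Q v) (h : OGrp Q) :
    finrank F (fixSp (conjS g c hg h)) = finrank F (fixSp h) := by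
  have h1 : fixSp (conjS g c hg h) = (fixSp h).map (g : V →ₗ[F] V) := by
    ext x
    constructor
    · intro hx
      have hx' : (conjS g c hg h).1 x = x := hx
      refine ⟨g.symm x, ?_, g.apply_symm_apply x⟩
      show h.1 (g.symm x) = g.symm x
      apply g.injective
      rw [← conjS_apply g c hg h, g.apply_symm_apply, hx']
    · rintro ⟨y, hy, rfl⟩
      show (conjS g c hg h).1 (g y) = g y
      rw [conjS_apply]
      exact congrArg g hy
  rw [h1, finrank_map_eq']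

theorem par_conjS (hQ : (QuadraticMap.polarBilin Q).Nondegenerate) (hF : (∃ a : F, a ≠ 0 ∧ a ≠ 1) ∨ finrank F V ≠ 4)
    (g : V ≃ₗ[F] V) (c : F) (hg : ∀ v, Q (g v) = c * Q v) (h : OGrp Q) : par hQ hF (conjS g c hg h) = par hQ hF h := by
  show parFun _ = parFun _
  unfold parFun
  rw [finrank_fix_conjS]

/-- the classes are preserved iff the isometry part is even -/
theorem psc_iff (hQ : (QuadraticMap.polarBilin Q).Nondegenerate) (hF : (∃ a : F, a ≠ 0 ∧ a ≠ 1) ∨ finrank F V ≠ 4) {n : ℕ}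
    (hn : finrank F V = 2 * n) {U₀ : Submodule F V} (hU₀ : TS Q U₀) (hU₀' : finrank F U₀ = n) (g d : V ≃ₗ[F] V) (c : F)
    (hg : ∀ v, Q (g v) = c * Q v) (t : OGrp Q) (ht : ∀ v, g v = t.1 (d v)) (hd : U₀.map (d : V →ₗ[F] V) = U₀) :
    (∀ U : Submodule F V, TS Q U → (∀ W : Submodule F V, TS Q W → U ≤ W → W = U) →
      Even (finrank F U - finrank F (U ⊓ U.map (g : V →ₗ[F] V) : Submodule F V))) ↔ par hQ hF t = 1 := by
  have hgU : U₀.map (g : V →ₗ[F] V) = U₀.map (t.1 : V →ₗ[F] V) := by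
    have h1 : (g : V →ₗ[F] V) = (t.1 : V →ₗ[F] V).comp (d : V →ₗ[F] V) := by
      ext v; exact ht v
    rw [h1, Submodule.map_comp, hd]
  constructor
  · intro h
    have h1 := h U₀ hU₀ (max_of_finrank hQ hn hU₀')
    rw [hU₀', hgU, class_parity hQ hF hn hU₀ hU₀' t] at h1
    exact h1
  · intro hpar U hU hmax
    have hfU := finrank_max hQ hn hU₀ hU₀' hU hmax
    obtain ⟨h, hh⟩ := exists_map_eq hQ hU₀ hU (by rw [hU₀', hfU])
    have hUe : U₀.map (h.1 : V →ₗ[F] V) = U := Submodule.eq_of_le_of_finrank_eq hh (by rw [finrank_map_eq', hU₀', hfU])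
    obtain ⟨t', ht'⟩ : ∃ t', t' = conjS g c hg h * t * h⁻¹ := ⟨_, rfl⟩
    have h2 : U.map (g : V →ₗ[F] V) = U.map (t'.1 : V →ₗ[F] V) := by
      have e1 : ((t' * h : OGrp Q).1 : V →ₗ[F] V) = ((conjS g c hg h * t : OGrp Q).1 : V →ₗ[F] V) := by
        rw [ht', inv_mul_cancel_right]
      have e2 : (U₀.map (h.1 : V →ₗ[F] V)).map (t'.1 : V →ₗ[F] V) = U₀.map ((t' * h : OGrp Q).1 : V →ₗ[F] V) := by
        rw [← Submodule.map_comp]; rfl
      have e3 : U₀.map ((conjS g c hg h * t : OGrp Q).1 : V →ₗ[F] V) = (U₀.map (t.1 : V →ₗ[F] V)).map ((conjS g c hg h).1 : V →ₗ[F] V) := by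
        rw [← Submodule.map_comp]; rfl
      have e4 : (U₀.map (g : V →ₗ[F] V)).map ((conjS g c hg h).1 : V →ₗ[F] V) = (U₀.map (h.1 : V →ₗ[F] V)).map (g : V →ₗ[F] V) := by
        rw [← Submodule.map_comp, ← Submodule.map_comp]
        congr 1
        ext v
        exact conjS_apply g c hg h v
      rw [← hUe, e2, e1, e3, ← hgU, e4]
    rw [hfU, h2, class_parity hQ hF hn hU hfU t', ht', map_mul, map_mul, map_inv, par_conjS, hpar, mul_one, mul_inv_cancel]

end psc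

section mat
variable {F : Type*} [Field F] {ι : Type} [Fintype ι] [DecidableEq ι] {Q : QuadraticForm F (ι → F)}

/-- matrix version -/
theorem PSC_iff (hQ : (QuadraticMap.polarBilin Q).Nondegenerate) (hF : (∃ a : F, a ≠ 0 ∧ a ≠ 1) ∨ finrank F (ι → F) ≠ 4) {n : ℕ}
    (hn : finrank F (ι → F) = 2 * n) {U₀ : Submodule F (ι → F)} (hU₀ : TS Q U₀) (hU₀' : finrank F U₀ = n) (g d : GL ι F) (c : F)
    (hg : ∀ v, Q ((g : Matrix ι ι F) *ᵥ v) = c * Q v) (t : Cfsg.isometryGroup F ⇑Q) (ht : g = (t : GL ι F) * d)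
    (hd : ∀ x ∈ U₀, (d : Matrix ι ι F) *ᵥ x ∈ U₀) :
    Cfsg.PreservesSingularClasses ⇑Q (g : Matrix ι ι F) ↔ par hQ hF (oIso Q t) = 1 := by
  have hd' : U₀.map ((glLin d : (ι → F) ≃ₗ[F] (ι → F)) : (ι → F) →ₗ[F] (ι → F)) = U₀ := by
    apply Submodule.eq_of_le_of_finrank_eq
    · rw [Submodule.map_le_iff_le_comap]
      intro x hx
      exact hd x hx
    · rw [finrank_map_eq']
  have hdl : ∀ (x : GL ι F), ((glLin x : (ι → F) ≃ₗ[F] (ι → F)) : (ι → F) →ₗ[F] (ι → F)) = Matrix.toLin' (x : Matrix ι ι F) := fun x => rfl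
  rw [← psc_iff hQ hF hn hU₀ hU₀' (glLin g) (glLin d) c hg (oIso Q t) (fun v => by
    show (g : Matrix ι ι F) *ᵥ v = ((t : GL ι F) : Matrix ι ι F) *ᵥ ((d : Matrix ι ι F) *ᵥ v)
    rw [ht, Units.val_mul, mulVec_mulVec]) hd']
  constructor
  · intro h U hU hmax
    exact h U ⟨hU, hmax⟩
  · intro h U hU
    exact h U hU.1 hU.2

end mat

end CfsgLib.Even27
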