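import Cfsg.Agent.LibH22Fq2

set_option autoImplicit false

/-! An anisotropic binary form (seat helper22). -/

namespace Cfsg.Agent.H22

theorem exists_aniso (F : Type*) [Field F] [Finite F] : ∃ a b : F, ∀ z₁ z₂ : F, z₁ ^ 2 + a * z₁ * z₂ + b * z₂ ^ 2 = 0 → z₁ = 0 ∧ z₂ = 0 := by
  have h1 : ¬ Function.Injective (fun x : F => x ^ 2 + x) := by
    intro h
    have : (0 : F) = -1 := h (by simp)
    have h2 : (1 : F) = 0 := by linear_combination this
    exact one_ne_zero h2
  have h2 : ¬ Function.Surjective (fun x : F => x ^ 2 + x) := fun h => h1 (Finite.injective_iff_surjective.2 h)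
  rw [Function.Surjective] at h2
  push Not at h2
  obtain ⟨b, hb⟩ := h2
  refine ⟨1, -b, fun z₁ z₂ h => ?_⟩
  have hz2 : z₂ = 0 := by
    by_contra hz
    apply hb (z₁ / z₂)
    have hzz : z₂ ^ 2 ≠ 0 := pow_ne_zero _ hz
    rw [div_pow]
    field_simp
    linear_combination h
  subst hz2
  refine ⟨?_, rfl⟩
  have h3 : z₁ ^ 2 = 0 := by linear_combination h
  exact (pow_eq_zero_iff (by norm_num)).1 h3

end Cfsg.Agent.H22
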