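import Cfsg.Agent.LibEven27a
import Cfsg.Agent.LibH22Fq2b

set_option autoImplicit false

/-! Inner-diagonal similarities of the even-dimensional forms. -/

namespace CfsgLib.Even27

open Cfsg.Agent.H22 CfsgLib.Cls27 CfsgLib.Semi27 CfsgLib.Lift27 CfsgLib.RhoO27 Module Matrix

universe u

section quad
open Polynomial

theorem exists_adjoin {F : Type u} [Field F] [Finite F] {a b : F} (hab : ∀ z₁ z₂ : F, z₁ ^ 2 + a * z₁ * z₂ + b * z₂ ^ 2 = 0 → z₁ = 0 ∧ z₂ = 0) :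
    ∃ (K : Type u) (_ : Field K) (_ : Algebra F K), finrank F K = 2 ∧ ∃ θ : K, θ ^ 2 + algebraMap F K a * θ + algebraMap F K b = 0 := by
  classical
  obtain ⟨f, hf⟩ : ∃ f : F[X], f = X ^ 2 + (C a * X + C b) := ⟨_, rfl⟩
  have hdeg : f.degree = 2 := by
    rw [hf]
    have : (C a * X + C b : F[X]).degree < 2 := by
      refine lt_of_le_of_lt (degree_linear_le) ?_
      decide
    rw [degree_add_eq_left_of_degree_lt (by rw [degree_X_pow]; exact this), degree_X_pow]; rfl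
  have hnat : f.natDegree = 2 := natDegree_eq_of_degree_eq_some hdeg
  have hmonic : f.Monic := by
    rw [hf]
    refine monic_X_pow_add ?_
    refine lt_of_le_of_lt (degree_linear_le) ?_
    decide
  have hirr : Irreducible f := by
    rw [hmonic.irreducible_iff_roots_eq_zero_of_degree_le_three (by rw [hnat]) (by rw [hnat]; norm_num)]
    apply Multiset.eq_zero_of_forall_notMem
    intro x hx
    rw [mem_roots hmonic.ne_zero, IsRoot.def, hf] at hx
    simp only [eval_add, eval_pow, eval_X, eval_mul, eval_C] at hx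
    have h1 := hab x 1 (by linear_combination hx)
    exact one_ne_zero h1.2
  haveI : Fact (Irreducible f) := ⟨hirr⟩
  have hfr : Module.finrank F (AdjoinRoot f) = 2 := by
    rw [(AdjoinRoot.powerBasis hirr.ne_zero).finrank, AdjoinRoot.powerBasis_dim, hnat]
  refine ⟨AdjoinRoot f, inferInstance, inferInstance, hfr, AdjoinRoot.root f, ?_⟩
  have h1 : (AdjoinRoot.root f) ^ 2 + (AdjoinRoot.of f a) * (AdjoinRoot.root f) + AdjoinRoot.of f b = 0 := by
    have := AdjoinRoot.eval₂_root f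
    have h2 : ∀ g : F[X], g = X ^ 2 + (C a * X + C b) → g.eval₂ (AdjoinRoot.of f) (AdjoinRoot.root f) = (AdjoinRoot.root f) ^ 2 + ((AdjoinRoot.of f a) * (AdjoinRoot.root f) + AdjoinRoot.of f b) := by
      intro g hg
      rw [hg]
      simp only [eval₂_add, eval₂_pow, eval₂_X, eval₂_mul, eval₂_C]
    rw [h2 f hf] at this
    rw [add_assoc]; exact this
  exact h1

theorem root_of_quad {F : Type u} [Field F] [Finite F] {K : Type*} [Field K] [Algebra F K] (hK : finrank F K = 2) {a b : F}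
    (hab : ∀ z₁ z₂ : F, z₁ ^ 2 + a * z₁ * z₂ + b * z₂ ^ 2 = 0 → z₁ = 0 ∧ z₂ = 0) :
    ∃ θ : K, θ ^ 2 + algebraMap F K a * θ + algebraMap F K b = 0 := by
  haveI : Module.Finite F K := Module.finite_of_finrank_pos (by rw [hK]; norm_num)
  haveI : Finite K := Module.finite_of_finite F
  obtain ⟨L, _, _, hL, θ, hθ⟩ := exists_adjoin hab
  haveI : Module.Finite F L := Module.finite_of_finrank_pos (by rw [hL]; norm_num)
  haveI : Finite L := Module.finite_of_finite F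
  obtain ⟨φ⟩ := FiniteField.nonempty_algHom_of_finrank_dvd (F := F) (K := L) (L := K) (by rw [hK, hL])
  refine ⟨φ θ, ?_⟩
  have := congrArg φ hθ
  rw [map_add, map_add, map_mul, map_pow, map_zero, AlgHom.commutes, AlgHom.commutes] at this
  exact this

theorem square_of_quad {F : Type u} [Field F] [Finite F] {K : Type*} [Field K] [Algebra F K] (hK : finrank F K = 2) (c : F) :
    IsSquare (algebraMap F K c) := by
  by_cases h : IsSquare c
  · obtain ⟨s, rfl⟩ := h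
    exact ⟨algebraMap F K s, by rw [map_mul]⟩
  · obtain ⟨θ, hθ⟩ := root_of_quad (K := K) hK (a := 0) (b := -c) (by
      intro z₁ z₂ hz
      have h2 : z₂ = 0 := by
        by_contra h2
        apply h
        refine ⟨z₁ / z₂, ?_⟩
        field_simp
        linear_combination -hz
      subst h2
      refine ⟨?_, rfl⟩
      have h3 : z₁ ^ 2 = 0 := by linear_combination hz
      exact (pow_eq_zero_iff (by norm_num)).1 h3)
    refine ⟨θ, ?_⟩
    rw [map_zero, map_neg] at hθ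
    linear_combination -hθ

end quad

section plus
variable {F : Type*} [Field F] {m : ℕ}

/-- the standard totally singular subspace -/
def UP (m : ℕ) (F : Type*) [Field F] : Submodule F (Fin m ⊕ Fin m → F) where
  carrier := {x | ∀ i, x (.inr i) = 0}
  add_mem' := by
    intro a b ha hb i
    rw [Pi.add_apply, ha, hb, add_zero]
  zero_mem' := fun i => rfl
  smul_mem' := by
    intro c a ha i
    rw [Pi.smul_apply, ha, smul_zero]

theorem mem_UP {x : Fin m ⊕ Fin m → F} : x ∈ UP m F ↔ ∀ i, x (.inr i) = 0 := Iff.rfl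

theorem TS_UP : TS (qPlus m F) (UP m F) := by
  intro x hx
  rw [coe_qPlus]
  unfold Cfsg.quadFormPlus
  apply Finset.sum_eq_zero
  intro i _
  rw [mem_UP.1 hx, mul_zero]

theorem finrank_UP : finrank F (UP m F) = m := by
  let e : UP m F ≃ₗ[F] (Fin m → F) :=
    { toFun := fun x i => x.1 (.inl i)
      invFun := fun y => ⟨Sum.elim y 0, fun i => rfl⟩
      left_inv := by
        rintro ⟨x, hx⟩
        apply Subtype.ext
        funext i
        rcases i with i | i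
        · rfl
        · exact (hx i).symm
      right_inv := fun y => rfl
      map_add' := fun x y => rfl
      map_smul' := fun c x => rfl }
  rw [LinearEquiv.finrank_eq e]
  simp

theorem finrank_plus : finrank F (Fin m ⊕ Fin m → F) = 2 * m := by simp; omega

/-- the standard similarity -/
def dC (m : ℕ) (c : Fˣ) : GL (Fin m ⊕ Fin m) F :=
  ⟨diagonal (Sum.elim (fun _ => (c : F)) (fun _ => 1)), diagonal (Sum.elim (fun _ => ((c⁻¹ : Fˣ) : F)) (fun _ => 1)), by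
    rw [diagonal_mul_diagonal, ← diagonal_one]
    congr 1
    funext i
    rcases i with i | i
    · simp
    · simp, by
    rw [diagonal_mul_diagonal, ← diagonal_one]
    congr 1
    funext i
    rcases i with i | i
    · simp
    · simp⟩

theorem dC_inl (c : Fˣ) (x : Fin m ⊕ Fin m → F) (i : Fin m) :
    (((dC m c : GL (Fin m ⊕ Fin m) F) : Matrix (Fin m ⊕ Fin m) (Fin m ⊕ Fin m) F) *ᵥ x) (.inl i) = c * x (.inl i) := by
  show (diagonal (Sum.elim (fun _ => (c : F)) (fun _ => 1)) *ᵥ x) (.inl i) = _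
  rw [mulVec_diagonal]; rfl

theorem dC_inr (c : Fˣ) (x : Fin m ⊕ Fin m → F) (i : Fin m) :
    (((dC m c : GL (Fin m ⊕ Fin m) F) : Matrix (Fin m ⊕ Fin m) (Fin m ⊕ Fin m) F) *ᵥ x) (.inr i) = x (.inr i) := by
  show (diagonal (Sum.elim (fun _ => (c : F)) (fun _ => 1)) *ᵥ x) (.inr i) = _
  rw [mulVec_diagonal]
  show 1 * x (.inr i) = _
  rw [one_mul]

theorem dC_Q (c : Fˣ) (x : Fin m ⊕ Fin m → F) :
    qPlus m F (((dC m c : GL (Fin m ⊕ Fin m) F) : Matrix (Fin m ⊕ Fin m) (Fin m ⊕ Fin m) F) *ᵥ x) = c * qPlus m F x := by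
  rw [coe_qPlus]
  unfold Cfsg.quadFormPlus
  rw [Finset.mul_sum]
  apply Finset.sum_congr rfl
  intro i _
  rw [dC_inl, dC_inr]; ring

theorem dC_det (c : Fˣ) : (dC m c : GL (Fin m ⊕ Fin m) F).det = c ^ m := by
  apply Units.ext
  show (diagonal (Sum.elim (fun _ => (c : F)) (fun _ => 1)) : Matrix (Fin m ⊕ Fin m) (Fin m ⊕ Fin m) F).det = _
  rw [det_diagonal, Fintype.prod_sum_type]
  simp

theorem iso_of_sim {ι : Type} [Fintype ι] [DecidableEq ι] {Q : QuadraticForm F (ι → F)} {g d : GL ι F} {c : Fˣ}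
    (hg : ∀ v, Q ((g : Matrix ι ι F) *ᵥ v) = c * Q v) (hd : ∀ v, Q ((d : Matrix ι ι F) *ᵥ v) = c * Q v) :
    ∃ t : Cfsg.isometryGroup F ⇑Q, g = (t : GL ι F) * d := by
  refine ⟨⟨g * d⁻¹, ?_⟩, by rw [inv_mul_cancel_right]⟩
  rw [mem_isometryGroup]
  intro x
  have h1 : (d : Matrix ι ι F) *ᵥ (((d⁻¹ : GL ι F) : Matrix ι ι F) *ᵥ x) = x := by
    rw [mulVec_mulVec, ← Units.val_mul, mul_inv_cancel, Units.val_one, one_mulVec]
  rw [Units.val_mul, ← mulVec_mulVec, hg, ← hd, h1]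

/-- classes for the plus form -/
theorem PSC_plus' [Fintype F] (h2 : (2 : F) ≠ 0) {g : GL (Fin m ⊕ Fin m) F} {c : Fˣ}
    (hg : ∀ v, qPlus m F ((g : Matrix (Fin m ⊕ Fin m) (Fin m ⊕ Fin m) F) *ᵥ v) = c * qPlus m F v) :
    Cfsg.PreservesSingularClasses ⇑(qPlus m F) (g : Matrix (Fin m ⊕ Fin m) (Fin m ⊕ Fin m) F) ↔ g.det = c ^ m := by
  obtain ⟨t, ht⟩ := iso_of_sim hg (dC_Q c)
  rw [PSC_iff (nondeg_qPlus m) (Or.inl (exists_ne_one_of_odd h2)) finrank_plus TS_UP finrank_UP g (dC m c) c hg t ht, ← det_eq_one_iff h2 (nondeg_qPlus m),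
    ht, map_mul, dC_det, mul_eq_right]
  intro x hx i
  rw [dC_inr]
  exact hx i

/-- square multiplier -/
theorem PSC_sq {ι : Type} [Fintype ι] [DecidableEq ι] {Q : QuadraticForm F (ι → F)} (hQ : (QuadraticMap.polarBilin Q).Nondegenerate)
    (hF : (∃ a : F, a ≠ 0 ∧ a ≠ 1) ∨ finrank F (ι → F) ≠ 4) {n : ℕ}
    (hn : finrank F (ι → F) = 2 * n) {U₀ : Submodule F (ι → F)} (hU₀ : TS Q U₀) (hU₀' : finrank F U₀ = n) {g : GL ι F} {s : Fˣ}
    {t : Cfsg.isometryGroup F ⇑Q} (ht : g = scal s * (t : GL ι F)) :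
    Cfsg.PreservesSingularClasses ⇑Q (g : Matrix ι ι F) ↔ par hQ hF (oIso Q t) = 1 := by
  have ht' : g = (t : GL ι F) * scal s := by rw [ht, scal_comm]
  apply PSC_iff hQ hF hn hU₀ hU₀' g (scal s) ((s : F) * s) _ t ht'
  · intro x hx
    rw [scal_mulVec]
    exact U₀.smul_mem _ hx
  · intro v
    have h1 := (mem_isometryGroup Q).1 t.2
    rw [ht, scal_mul_mulVec, qsmul, h1]

end plus

section minus
variable {K : Type*} [Field K] {m : ℕ}

/-- the totally singular subspace given by a root -/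
def UM (m : ℕ) (θ : K) : Submodule K ((Fin m ⊕ Fin m) ⊕ Fin 2 → K) where
  carrier := {x | (∀ i, x (.inl (.inr i)) = 0) ∧ x (.inr 0) = θ * x (.inr 1)}
  add_mem' := by
    intro a b ha hb
    refine ⟨fun i => ?_, ?_⟩
    · rw [Pi.add_apply, ha.1, hb.1, add_zero]
    · rw [Pi.add_apply, Pi.add_apply, ha.2, hb.2, mul_add]
  zero_mem' := ⟨fun i => rfl, by simp⟩
  smul_mem' := by
    intro c a ha
    refine ⟨fun i => ?_, ?_⟩
    · rw [Pi.smul_apply, ha.1, smul_zero]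
    · rw [Pi.smul_apply, Pi.smul_apply, ha.2, smul_eq_mul, smul_eq_mul]; ring

theorem mem_UM {θ : K} {x : (Fin m ⊕ Fin m) ⊕ Fin 2 → K} : x ∈ UM m θ ↔ (∀ i, x (.inl (.inr i)) = 0) ∧ x (.inr 0) = θ * x (.inr 1) := Iff.rfl

theorem TS_UM {θ a b : K} (hθ : θ ^ 2 + a * θ + b = 0) : TS (qMinus m K a b) (UM m θ) := by
  rintro x ⟨h1, h3⟩
  rw [coe_qMinus]
  unfold Cfsg.quadFormMinus
  rw [h3]
  have : ∑ i, x (.inl (.inl i)) * x (.inl (.inr i)) = 0 := by
    apply Finset.sum_eq_zero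
    intro i _
    rw [h1, mul_zero]
  rw [this]
  linear_combination (x (.inr 1)) ^ 2 * hθ

theorem finrank_UM {θ : K} : finrank K (UM m θ) = m + 1 := by
  let e : UM m θ ≃ₗ[K] (Fin m → K) × K :=
    { toFun := fun x => (fun i => x.1 (.inl (.inl i)), x.1 (.inr 1))
      invFun := fun y => ⟨Sum.elim (Sum.elim y.1 0) ![θ * y.2, y.2], fun i => rfl, rfl⟩
      left_inv := by
        rintro ⟨x, hx⟩
        apply Subtype.ext
        funext i
        rcases i with (i | i) | i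
        · rfl
        · exact (hx.1 i).symm
        · fin_cases i
          · exact hx.2.symm
          · rfl
      right_inv := fun y => rfl
      map_add' := fun x y => rfl
      map_smul' := fun c x => rfl }
  rw [LinearEquiv.finrank_eq e]
  simp

theorem finrank_minus : finrank K ((Fin m ⊕ Fin m) ⊕ Fin 2 → K) = 2 * (m + 1) := by simp; omega

theorem qMinus_j {F K : Type*} [Field F] [Field K] (j : F →+* K) (a b : F) (x : (Fin m ⊕ Fin m) ⊕ Fin 2 → F) :
    qMinus m K (j a) (j b) (j ∘ x) = j (qMinus m F a b x) := by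
  rw [coe_qMinus, coe_qMinus]
  unfold Cfsg.quadFormMinus
  simp [map_sum]

theorem lift_mult {F K : Type*} [Field F] [Field K] {ι : Type} [Fintype ι] [DecidableEq ι] {Q₀ : QuadraticForm F (ι → F)} {Q : QuadraticForm K (ι → K)}
    (j : F →+* K) (hj : ∀ x, Q (j ∘ x) = j (Q₀ x)) {g : GL ι F} {c : F} (hg : ∀ v, Q₀ ((g : Matrix ι ι F) *ᵥ v) = c * Q₀ v) (v : ι → K) :
    Q (((Matrix.GeneralLinearGroup.map j g : GL ι K) : Matrix ι ι K) *ᵥ v) = j c * Q v := by
  have hC : Q.comp (Matrix.toLin' ((Matrix.GeneralLinearGroup.map j g : GL ι K) : Matrix ι ι K)) = (j c) • Q := by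
    apply qf_ext_j j
    intro x
    have h1 : ((Matrix.GeneralLinearGroup.map j g : GL ι K) : Matrix ι ι K) *ᵥ (j ∘ x) = j ∘ ((g : Matrix ι ι F) *ᵥ x) := map_mulVec' j _ x
    rw [QuadraticMap.comp_apply, Matrix.toLin'_apply, h1, hj, hg, map_mul, QuadraticMap.smul_apply, hj, smul_eq_mul]
  exact congrArg (fun D : QuadraticForm K (ι → K) => D v) hC

theorem det_map_gl {F K : Type*} [Field F] [Field K] {ι : Type} [Fintype ι] [DecidableEq ι] (j : F →+* K) (g : GL ι F) :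
    (Matrix.GeneralLinearGroup.map j g : GL ι K).det = Units.map (j : F →* K) g.det := by
  apply Units.ext
  exact (j.map_det (g : Matrix ι ι F)).symm

end minus

section minusK

theorem nondeg_qMinus' {F : Type*} [Field F] (m : ℕ) (a b : F) (hd : a ^ 2 - 4 * b ≠ 0) : (QuadraticMap.polarBilin (qMinus m F a b)).Nondegenerate := by
  apply nondeg_of_left
  intro x hx
  have k0 := hx (Pi.single (.inr 0) 1)
  have k1 := hx (Pi.single (.inr 1) 1)
  rw [polar_qMinus] at k0 k1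
  simp [Pi.single_apply] at k0 k1
  have e0 : x (.inr 0) = 0 := by
    have : (a ^ 2 - 4 * b) * x (.inr 0) = 0 := by linear_combination a * k1 - 2 * b * k0
    exact (mul_eq_zero.1 this).resolve_left hd
  have e1 : x (.inr 1) = 0 := by
    have : (a ^ 2 - 4 * b) * x (.inr 1) = 0 := by linear_combination a * k0 - 2 * k1
    exact (mul_eq_zero.1 this).resolve_left hd
  ext k
  rcases k with (i | i) | i
  · have := hx (Pi.single (.inl (.inr i)) 1)
    rw [polar_qMinus] at this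
    simpa [Pi.single_apply] using this
  · have := hx (Pi.single (.inl (.inl i)) 1)
    rw [polar_qMinus] at this
    simpa [Pi.single_apply] using this
  · fin_cases i
    · exact e0
    · exact e1

theorem par_liftI {F₀ F : Type*} [Field F₀] [Field F] {ι : Type} [Fintype ι] [DecidableEq ι] {Q₀ : QuadraticForm F₀ (ι → F₀)} {Q : QuadraticForm F (ι → F)}
    (j : F₀ →+* F) (hj : ∀ x, Q (j ∘ x) = j (Q₀ x)) (hQ₀ : (QuadraticMap.polarBilin Q₀).Nondegenerate) (hQ : (QuadraticMap.polarBilin Q).Nondegenerate)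
    [Finite F₀] [Finite F]
    (hF₀ : (∃ a : F₀, a ≠ 0 ∧ a ≠ 1) ∨ finrank F₀ (ι → F₀) ≠ 4) (hF : (∃ a : F, a ≠ 0 ∧ a ≠ 1) ∨ finrank F (ι → F) ≠ 4) (t : Cfsg.isometryGroup F₀ ⇑Q₀) :
    par hQ hF (oIso Q (liftI j hj t)) = par hQ₀ hF₀ (oIso Q₀ t) := by
  haveI := Fintype.ofFinite F₀
  haveI := Fintype.ofFinite F
  have h1 : ((par hQ hF).comp (oIso Q : Cfsg.isometryGroup F ⇑Q →* OGrp Q)).comp (liftI j hj) =
      (par hQ₀ hF₀).comp (oIso Q₀ : Cfsg.isometryGroup F₀ ⇑Q₀ →* OGrp Q₀) := by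
    apply MonoidHom.eq_of_eqOn_dense (closure_rfM hQ₀ hF₀)
    rintro _ ⟨v, hv, rfl⟩
    have hv' : Q (j ∘ v) ≠ 0 := by rw [hj]; exact (map_ne_zero_iff j j.injective).2 hv
    show par hQ hF (oIso Q (liftI j hj (rfM Q₀ v hv))) = par hQ₀ hF₀ (oIso Q₀ (rfM Q₀ v hv))
    rw [liftI_rfM j hj v hv hv']
    unfold rfM
    rw [MulEquiv.apply_symm_apply, MulEquiv.apply_symm_apply, par_refl, par_refl]
  exact congrArg (fun φ : Cfsg.isometryGroup F₀ ⇑Q₀ →* ℤˣ => φ t) h1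

variable {F : Type u} [Field F] [Fintype F] {m : ℕ} {a b : F}

theorem PSC_minus_K {K : Type*} [Field K] [Algebra F K] (h2 : (2 : F) ≠ 0) (hK : finrank F K = 2)
    (hab : ∀ z₁ z₂ : F, z₁ ^ 2 + a * z₁ * z₂ + b * z₂ ^ 2 = 0 → z₁ = 0 ∧ z₂ = 0)
    {g : GL ((Fin m ⊕ Fin m) ⊕ Fin 2) F} {c : Fˣ} (hg : ∀ v, qMinus m F a b ((g : Matrix ((Fin m ⊕ Fin m) ⊕ Fin 2) ((Fin m ⊕ Fin m) ⊕ Fin 2) F) *ᵥ v) = c * qMinus m F a b v) :
    Cfsg.PreservesSingularClasses ⇑(qMinus m K (algebraMap F K a) (algebraMap F K b))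
      ((g : Matrix ((Fin m ⊕ Fin m) ⊕ Fin 2) ((Fin m ⊕ Fin m) ⊕ Fin 2) F).map (algebraMap F K)) ↔ g.det = c ^ (m + 1) := by
  haveI : Module.Finite F K := Module.finite_of_finrank_pos (by rw [hK]; norm_num)
  haveI : Finite K := Module.finite_of_finite F
  haveI := Fintype.ofFinite K
  obtain ⟨θ, hθ⟩ := root_of_quad hK hab
  obtain ⟨s, hs⟩ := square_of_quad hK (c : F)
  have hjc : algebraMap F K (c : F) ≠ 0 := (map_ne_zero_iff _ (algebraMap F K).injective).2 c.ne_zero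
  have hs0 : s ≠ 0 := by
    rintro rfl
    rw [mul_zero] at hs
    exact hjc hs
  have h2K : (2 : K) ≠ 0 := by
    have := (map_ne_zero_iff _ (algebraMap F K).injective).2 h2
    rwa [map_ofNat] at this
  have hd : (algebraMap F K a) ^ 2 - 4 * algebraMap F K b ≠ 0 := by
    have := (map_ne_zero_iff _ (algebraMap F K).injective).2 (disc_ne_zero a b hab)
    rwa [map_sub, map_mul, map_pow, map_ofNat] at this
  have hnd := nondeg_qMinus' m _ _ hd
  obtain ⟨s', hs'⟩ : ∃ s' : Kˣ, (s' : K) = s := ⟨Units.mk0 s hs0, rfl⟩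
  have hg1 : ∀ v, qMinus m K (algebraMap F K a) (algebraMap F K b)
      (((Matrix.GeneralLinearGroup.map (algebraMap F K) g : GL ((Fin m ⊕ Fin m) ⊕ Fin 2) K) : Matrix ((Fin m ⊕ Fin m) ⊕ Fin 2) ((Fin m ⊕ Fin m) ⊕ Fin 2) K) *ᵥ v) =
      ((s' * s' : Kˣ) : K) * qMinus m K (algebraMap F K a) (algebraMap F K b) v := by
    intro v
    rw [lift_mult (algebraMap F K) (qMinus_j (algebraMap F K) a b) hg, hs, Units.val_mul, hs']
  have hd1 : ∀ v, qMinus m K (algebraMap F K a) (algebraMap F K b)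
      (((scal s' : GL ((Fin m ⊕ Fin m) ⊕ Fin 2) K) : Matrix ((Fin m ⊕ Fin m) ⊕ Fin 2) ((Fin m ⊕ Fin m) ⊕ Fin 2) K) *ᵥ v) =
      ((s' * s' : Kˣ) : K) * qMinus m K (algebraMap F K a) (algebraMap F K b) v := by
    intro v
    rw [scal_mulVec, qsmul, Units.val_mul]
  obtain ⟨t, ht⟩ := iso_of_sim hg1 hd1
  have ht' : Matrix.GeneralLinearGroup.map (algebraMap F K) g = scal s' * (t : GL ((Fin m ⊕ Fin m) ⊕ Fin 2) K) := by rw [ht, scal_comm]
  have h5 := PSC_sq hnd (Or.inl (exists_ne_one_of_odd h2K)) finrank_minus (TS_UM hθ) finrank_UM ht'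
  rw [← det_eq_one_iff h2K hnd] at h5
  have h6 := congrArg Matrix.GeneralLinearGroup.det ht'
  rw [det_map_gl, map_mul, det_scal] at h6
  have hcard : Fintype.card ((Fin m ⊕ Fin m) ⊕ Fin 2) = 2 * (m + 1) := by simp; omega
  have h7 : s' ^ 2 = Units.map ((algebraMap F K : F →+* K) : F →* K) c := by
    apply Units.ext
    rw [Units.val_pow_eq_pow_val, hs', pow_two, ← hs]; rfl
  rw [hcard, pow_mul, h7, ← map_pow] at h6
  have h8 : (t : GL ((Fin m ⊕ Fin m) ⊕ Fin 2) K).det = 1 ↔ g.det = c ^ (m + 1) := by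
    constructor
    · intro h
      rw [h, mul_one] at h6
      exact Units.map_injective (algebraMap F K).injective h6
    · intro h
      rw [h] at h6
      exact (mul_eq_left.1 h6.symm)
  rw [← h8, ← h5]
  exact Iff.rfl

theorem PSC_minus' (h2 : (2 : F) ≠ 0) (hab : ∀ z₁ z₂ : F, z₁ ^ 2 + a * z₁ * z₂ + b * z₂ ^ 2 = 0 → z₁ = 0 ∧ z₂ = 0)
    {g : GL ((Fin m ⊕ Fin m) ⊕ Fin 2) F} {c : Fˣ} (hg : ∀ v, qMinus m F a b ((g : Matrix ((Fin m ⊕ Fin m) ⊕ Fin 2) ((Fin m ⊕ Fin m) ⊕ Fin 2) F) *ᵥ v) = c * qMinus m F a b v) :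
    Cfsg.PreservesSingularClassesMinus m a b (g : Matrix ((Fin m ⊕ Fin m) ⊕ Fin 2) ((Fin m ⊕ Fin m) ⊕ Fin 2) F) ↔ g.det = c ^ (m + 1) := by
  constructor
  · rintro ⟨K, _, _, hK, h⟩
    rw [← coe_qMinus, PSC_minus_K h2 hK hab hg] at h
    exact h
  · intro h
    obtain ⟨K, _, _, hK, -⟩ := exists_adjoin hab
    refine ⟨K, inferInstance, inferInstance, hK, ?_⟩
    rw [← coe_qMinus, PSC_minus_K h2 hK hab hg]
    exact h

theorem PSC_minus_K_two [CharP F 2] {K : Type*} [Field K] [Algebra F K] (hm : 2 ≤ m) (hK : finrank F K = 2)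
    (hab : ∀ z₁ z₂ : F, z₁ ^ 2 + a * z₁ * z₂ + b * z₂ ^ 2 = 0 → z₁ = 0 ∧ z₂ = 0) (hF : (∃ a : F, a ≠ 0 ∧ a ≠ 1) ∨ finrank F ((Fin m ⊕ Fin m) ⊕ Fin 2 → F) ≠ 4)
    {g : GL ((Fin m ⊕ Fin m) ⊕ Fin 2) F} {s : Fˣ} {t : Cfsg.isometryGroup F ⇑(qMinus m F a b)} (ht : g = scal s * (t : GL ((Fin m ⊕ Fin m) ⊕ Fin 2) F)) :
    Cfsg.PreservesSingularClasses ⇑(qMinus m K (algebraMap F K a) (algebraMap F K b))
      ((g : Matrix ((Fin m ⊕ Fin m) ⊕ Fin 2) ((Fin m ⊕ Fin m) ⊕ Fin 2) F).map (algebraMap F K)) ↔ par (nondeg_qMinus m a b hab) hF (oIso _ t) = 1 := by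
  haveI : Module.Finite F K := Module.finite_of_finrank_pos (by rw [hK]; norm_num)
  haveI : Finite K := Module.finite_of_finite F
  haveI := Fintype.ofFinite K
  obtain ⟨θ, hθ⟩ := root_of_quad hK hab
  have hd : (algebraMap F K a) ^ 2 - 4 * algebraMap F K b ≠ 0 := by
    have := (map_ne_zero_iff _ (algebraMap F K).injective).2 (disc_ne_zero a b hab)
    rwa [map_sub, map_mul, map_pow, map_ofNat] at this
  have hnd := nondeg_qMinus' m _ _ hd
  have hFK : (∃ a : K, a ≠ 0 ∧ a ≠ 1) ∨ finrank K ((Fin m ⊕ Fin m) ⊕ Fin 2 → K) ≠ 4 := Or.inr (by rw [finrank_minus]; omega)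
  have ht' : Matrix.GeneralLinearGroup.map (algebraMap F K) g = scal (Units.map ((algebraMap F K : F →+* K) : F →* K) s) *
      ((liftI (algebraMap F K) (qMinus_j (algebraMap F K) a b) t : Cfsg.isometryGroup K ⇑(qMinus m K (algebraMap F K a) (algebraMap F K b))) : GL ((Fin m ⊕ Fin m) ⊕ Fin 2) K) := by
    rw [ht, map_mul, liftI_coe]
    congr 1
    apply Units.ext
    show (Matrix.scalar ((Fin m ⊕ Fin m) ⊕ Fin 2) (s : F)).map (algebraMap F K) = Matrix.scalar ((Fin m ⊕ Fin m) ⊕ Fin 2) (algebraMap F K (s : F))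
    rw [Matrix.scalar_apply, Matrix.scalar_apply, Matrix.diagonal_map (map_zero _)]
  have h5 := PSC_sq hnd hFK finrank_minus (TS_UM hθ) finrank_UM ht'
  rw [par_liftI (algebraMap F K) (qMinus_j (algebraMap F K) a b) (nondeg_qMinus m a b hab) hnd hF hFK] at h5
  rw [← h5]
  exact Iff.rfl

theorem PSC_minus_two [CharP F 2] (hm : 2 ≤ m)
    (hab : ∀ z₁ z₂ : F, z₁ ^ 2 + a * z₁ * z₂ + b * z₂ ^ 2 = 0 → z₁ = 0 ∧ z₂ = 0) (hF : (∃ a : F, a ≠ 0 ∧ a ≠ 1) ∨ finrank F ((Fin m ⊕ Fin m) ⊕ Fin 2 → F) ≠ 4)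
    {g : GL ((Fin m ⊕ Fin m) ⊕ Fin 2) F} {s : Fˣ} {t : Cfsg.isometryGroup F ⇑(qMinus m F a b)} (ht : g = scal s * (t : GL ((Fin m ⊕ Fin m) ⊕ Fin 2) F)) :
    Cfsg.PreservesSingularClassesMinus m a b (g : Matrix ((Fin m ⊕ Fin m) ⊕ Fin 2) ((Fin m ⊕ Fin m) ⊕ Fin 2) F) ↔ par (nondeg_qMinus m a b hab) hF (oIso _ t) = 1 := by
  constructor
  · rintro ⟨K, _, _, hK, h⟩
    rw [← coe_qMinus, PSC_minus_K_two hm hK hab hF ht] at h
    exact h
  · intro h
    obtain ⟨K, _, _, hK, -⟩ := exists_adjoin hab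
    refine ⟨K, inferInstance, inferInstance, hK, ?_⟩
    rw [← coe_qMinus, PSC_minus_K_two hm hK hab hF ht]
    exact h

end minusK

end CfsgLib.Even27
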