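import Cfsg.Agent.LibEven27b
import Cfsg.Agent.LibSmall27

set_option autoImplicit false

/-! Even-dimensional orthogonal groups in odd characteristic: similarities modulo scalars and `Ω`. -/

namespace CfsgLib.Even27

open Cfsg.Agent.H22 CfsgLib.Cls27 CfsgLib.Semi27 CfsgLib.Lift27 CfsgLib.RhoO27 CfsgLib.AutO27 CfsgLib.Spinor27 Module Matrix

section mu
variable {F : Type*} [Field F] {ι : Type} [Fintype ι] [DecidableEq ι] {Q : QuadraticForm F (ι → F)}

theorem mult_unique (hx : ∃ x, Q x ≠ 0) {g : GL ι F} {c c' : Fˣ} (h : ∀ v, Q ((g : Matrix ι ι F) *ᵥ v) = c * Q v)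
    (h' : ∀ v, Q ((g : Matrix ι ι F) *ᵥ v) = c' * Q v) : c = c' := by
  obtain ⟨x, hx⟩ := hx
  apply Units.ext
  apply mul_right_cancel₀ hx
  rw [← h, ← h']

/-- the multiplier -/
noncomputable def mu (hx : ∃ x, Q x ≠ 0) : GOs Q →* Fˣ where
  toFun g := g.2.choose
  map_one' := by
    apply mult_unique hx (g := 1) ((1 : GOs Q).2.choose_spec)
    intro v
    rw [Units.val_one, one_mulVec, Units.val_one, one_mul]
  map_mul' := by
    intro g h
    apply mult_unique hx (g := ((g * h : GOs Q) : GL ι F)) ((g * h).2.choose_spec)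
    intro v
    have h1 := g.2.choose_spec
    have h3 := h.2.choose_spec
    rw [Subgroup.coe_mul, Units.val_mul, ← mulVec_mulVec, Units.val_mul]
    have h4 : Q (((g : GL ι F) : Matrix ι ι F) *ᵥ (((h : GL ι F) : Matrix ι ι F) *ᵥ v)) = g.2.choose * Q (((h : GL ι F) : Matrix ι ι F) *ᵥ v) := h1 _
    have h5 : Q (((h : GL ι F) : Matrix ι ι F) *ᵥ v) = h.2.choose * Q v := h3 _
    rw [h4, h5, mul_assoc]

theorem mu_spec (hx : ∃ x, Q x ≠ 0) (g : GOs Q) (v : ι → F) : Q (((g : GL ι F) : Matrix ι ι F) *ᵥ v) = mu hx g * Q v := g.2.choose_spec v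

theorem mu_eq (hx : ∃ x, Q x ≠ 0) {g : GOs Q} {c : Fˣ} (h : ∀ v, Q (((g : GL ι F) : Matrix ι ι F) *ᵥ v) = c * Q v) : mu hx g = c :=
  mult_unique hx (g := (g : GL ι F)) (mu_spec hx g) h

/-- sign of an element of square one -/
noncomputable def sgn (x : Fˣ) : ℤˣ := by classical exact if x = 1 then 1 else -1

theorem sgn_eq_one {x : Fˣ} : sgn x = 1 ↔ x = 1 := by
  unfold sgn
  split_ifs with h
  · exact ⟨fun _ => h, fun _ => rfl⟩
  · exact ⟨fun h' => absurd h' (by decide), fun h' => absurd h' h⟩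

theorem neg_one_ne (h2 : (2 : F) ≠ 0) : (-1 : Fˣ) ≠ 1 := by
  intro h
  have := congrArg Units.val h
  rw [Units.val_neg, Units.val_one] at this
  apply h2
  linear_combination -this

theorem sgn_mul (h2 : (2 : F) ≠ 0) {x y : Fˣ} (hx : x ^ 2 = 1) (hy : y ^ 2 = 1) : sgn (x * y) = sgn x * sgn y := by
  have key : ∀ z : Fˣ, z ^ 2 = 1 → z = 1 ∨ z = -1 := by
    intro z hz
    have h1 : (z : F) ^ 2 = 1 := by rw [← Units.val_pow_eq_pow_val, hz, Units.val_one]
    have h3 : ((z : F) - 1) * ((z : F) + 1) = 0 := by linear_combination h1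
    rcases mul_eq_zero.1 h3 with h | h
    · left; exact Units.ext (sub_eq_zero.1 h)
    · right
      apply Units.ext
      rw [Units.val_neg, Units.val_one]
      linear_combination h
  have hn := neg_one_ne h2
  have e1 : sgn (1 : Fˣ) = 1 := sgn_eq_one.2 rfl
  have e2 : sgn (-1 : Fˣ) = -1 := by
    unfold sgn
    rw [if_neg hn]
  rcases key x hx with rfl | rfl <;> rcases key y hy with rfl | rfl
  · simp [e1]
  · simp [e1]
  · simp [e1]
  · rw [neg_mul_neg, one_mul, e1, e2]; rfl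

end mu

/-- even-dimensional forms with all similarities -/
structure Ev {F : Type*} [Field F] {ι : Type} [Fintype ι] [DecidableEq ι] (Q : QuadraticForm F (ι → F)) (n : ℕ) : Prop where
  nd : (QuadraticMap.polarBilin Q).Nondegenerate
  card : Fintype.card ι = 2 * n
  n1 : 1 ≤ n
  sim : ∀ c : Fˣ, ∃ g : GL ι F, (∀ v, Q ((g : Matrix ι ι F) *ᵥ v) = c * Q v) ∧ g.det = c ^ n
  h2 : (2 : F) ≠ 0

section ev
variable {F : Type*} [Field F] [Fintype F] {ι : Type} [Fintype ι] [DecidableEq ι] {Q : QuadraticForm F (ι → F)} {n : ℕ}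

theorem Ev.fr (h : Ev Q n) : 2 ≤ finrank F (ι → F) := by
  rw [Module.finrank_pi, h.card]
  have := h.n1
  omega

theorem Ev.hx (h : Ev Q n) : ∃ x, Q x ≠ 0 := by
  obtain ⟨v, hv⟩ := exists_norm_odd h.h2 h.nd h.fr 1
  exact ⟨v, by rw [hv]; exact one_ne_zero⟩

/-- the class of the multiplier modulo squares -/
noncomputable def Ev.cl (h : Ev Q n) : GOs Q →* ℤˣ where
  toFun g := chi ((mu h.hx g : Fˣ) : F)
  map_one' := by rw [map_one, Units.val_one, chi_one]
  map_mul' := by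
    intro g g'
    rw [map_mul, Units.val_mul, chi_mul h.h2 (Units.ne_zero _) (Units.ne_zero _)]

theorem Ev.cl_apply (h : Ev Q n) (g : GOs Q) : h.cl g = chi ((mu h.hx g : Fˣ) : F) := rfl

theorem Ev.det_sq (h : Ev Q n) (g : GOs Q) : ((g : GL ι F).det * ((mu h.hx g) ^ n)⁻¹) ^ 2 = 1 := by
  have h1 := CfsgLib.RhoO27.det_sq h.nd (mu_spec h.hx g)
  rw [mul_pow, inv_pow, ← pow_mul, mul_inv_eq_one]
  apply Units.ext
  rw [Units.val_pow_eq_pow_val, Units.val_pow_eq_pow_val, mul_comm n 2, ← h.card]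
  exact h1

/-- the sign of a similarity -/
noncomputable def Ev.eps (h : Ev Q n) : GOs Q →* ℤˣ where
  toFun g := sgn ((g : GL ι F).det * ((mu h.hx g) ^ n)⁻¹)
  map_one' := by
    apply sgn_eq_one.2
    rw [map_one, Subgroup.coe_one, map_one, one_pow, inv_one, mul_one]
  map_mul' := by
    intro g g'
    rw [← sgn_mul h.h2 (h.det_sq g) (h.det_sq g')]
    congr 1
    rw [map_mul, Subgroup.coe_mul, map_mul, mul_pow, mul_inv]
    exact mul_mul_mul_comm _ _ _ _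

theorem Ev.eps_eq_one (h : Ev Q n) (g : GOs Q) : h.eps g = 1 ↔ (g : GL ι F).det = (mu h.hx g) ^ n := by
  show sgn _ = 1 ↔ _
  rw [sgn_eq_one, mul_inv_eq_one]

theorem units_ne {z : ℤˣ} (h : z ≠ 1) : z = -1 := (Int.units_eq_one_or z).resolve_left h

theorem Ev.exists_nonsq (h : Ev Q n) : ∃ c : Fˣ, ¬ IsSquare (c : F) := by
  obtain ⟨ν, hν⟩ : ∃ ν : F, ¬ IsSquare ν := by
    apply FiniteField.exists_nonsquare
    intro h3
    apply h.h2
    have := ringChar.spec F 2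
    rw [h3] at this
    exact_mod_cast this.2 dvd_rfl
  have hν0 : ν ≠ 0 := by rintro rfl; exact hν IsSquare.zero
  exact ⟨Units.mk0 ν hν0, hν⟩

/-- a reflection as a similarity -/
noncomputable def rfG (v : ι → F) (hv : Q v ≠ 0) : GOs Q := ⟨rfM Q v hv, iso_le (rfM Q v hv).2⟩

theorem mu_iso (hx : ∃ x, Q x ≠ 0) {g : GOs Q} (hg : (g : GL ι F) ∈ Cfsg.isometryGroup F ⇑Q) : mu hx g = 1 := by
  apply mu_eq
  intro v
  rw [(mem_isometryGroup Q).1 hg, Units.val_one, one_mul]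

theorem rfG_mem (v : ι → F) (hv : Q v ≠ 0) : ((rfG v hv : GOs Q) : GL ι F) ∈ Cfsg.isometryGroup F ⇑Q := (rfM Q v hv).2

theorem mu_rfG (hx : ∃ x, Q x ≠ 0) (v : ι → F) (hv : Q v ≠ 0) : mu hx (rfG v hv) = 1 := mu_iso hx (rfG_mem v hv)

theorem Ev.eps_rfG (h : Ev Q n) (v : ι → F) (hv : Q v ≠ 0) : h.eps (rfG v hv) = -1 := by
  apply units_ne
  intro h1
  rw [h.eps_eq_one, mu_rfG, one_pow] at h1
  have h3 : ((rfG v hv : GOs Q) : GL ι F).det = -1 := det_rfM v hv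
  rw [h3] at h1
  exact neg_one_ne h.h2 h1

theorem Ev.cl_rfG (h : Ev Q n) (v : ι → F) (hv : Q v ≠ 0) : h.cl (rfG v hv) = 1 := by
  rw [h.cl_apply, mu_rfG, Units.val_one, chi_one]

theorem Ev.exists_sim (h : Ev Q n) (c : Fˣ) : ∃ D : GOs Q, mu h.hx D = c ∧ h.eps D = 1 := by
  obtain ⟨g, hg, hd⟩ := h.sim c
  refine ⟨⟨g, c, hg⟩, mu_eq _ hg, ?_⟩
  rw [h.eps_eq_one, mu_eq (g := ⟨g, c, hg⟩) h.hx hg]
  exact hd

theorem Ev.exists_D (h : Ev Q n) : ∃ D : GOs Q, h.cl D = -1 ∧ h.eps D = 1 := by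
  obtain ⟨c, hc⟩ := h.exists_nonsq
  obtain ⟨D, hD, hD'⟩ := h.exists_sim c
  refine ⟨D, ?_, hD'⟩
  rw [h.cl_apply, hD, chi_eq_neg]
  exact hc

theorem Ev.exists_refl (h : Ev Q n) : ∃ r : GOs Q, h.cl r = 1 ∧ h.eps r = -1 := by
  obtain ⟨x, hx⟩ := h.hx
  exact ⟨rfG x hx, h.cl_rfG x hx, h.eps_rfG x hx⟩

/-- the pair of characters -/
noncomputable def Ev.ch (h : Ev Q n) : GOs Q →* ℤˣ × ℤˣ := h.eps.prod h.cl

theorem Ev.ch_surj (h : Ev Q n) : Function.Surjective h.ch := by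
  obtain ⟨D, hD1, hD2⟩ := h.exists_D
  obtain ⟨r, hr1, hr2⟩ := h.exists_refl
  rintro ⟨x, y⟩
  rcases Int.units_eq_one_or x with rfl | rfl <;> rcases Int.units_eq_one_or y with rfl | rfl
  · exact ⟨1, map_one _⟩
  · exact ⟨D, Prod.ext hD2 hD1⟩
  · exact ⟨r, Prod.ext hr2 hr1⟩
  · refine ⟨r * D, Prod.ext ?_ ?_⟩
    · show h.eps (r * D) = -1
      rw [map_mul, hr2, hD2]; rfl
    · show h.cl (r * D) = -1
      rw [map_mul, hr1, hD1]; rfl

theorem Ev.ch_ker_index (h : Ev Q n) : h.ch.ker.index = 4 := by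
  rw [Subgroup.index_ker, MonoidHom.range_eq_top.2 h.ch_surj]
  simp [Nat.card_eq_fintype_card]

theorem Ev.eps_ker_index (h : Ev Q n) : h.eps.ker.index = 2 := by
  have hs : Function.Surjective h.eps := by
    intro z
    obtain ⟨g, hg⟩ := h.ch_surj (z, 1)
    exact ⟨g, congrArg Prod.fst hg⟩
  rw [Subgroup.index_ker, MonoidHom.range_eq_top.2 hs]
  simp [Nat.card_eq_fintype_card]

theorem Ev.mem_ch_ker (h : Ev Q n) (g : GOs Q) : g ∈ h.ch.ker ↔ ∃ (a : Fˣ) (s : GL ι F), s ∈ SOg Q ∧ (g : GL ι F) = scal a * s := by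
  rw [MonoidHom.mem_ker]
  constructor
  · intro hg
    have h1 : h.eps g = 1 := congrArg Prod.fst hg
    have h3 : h.cl g = 1 := congrArg Prod.snd hg
    rw [h.cl_apply, chi_eq_one] at h3
    obtain ⟨a, ha⟩ := h3
    have ha0 : a ≠ 0 := by
      rintro rfl
      rw [mul_zero] at ha
      exact (mu h.hx g).ne_zero ha
    have hm : mu h.hx g = Units.mk0 a ha0 * Units.mk0 a ha0 := Units.ext ha
    refine ⟨Units.mk0 a ha0, scal (Units.mk0 a ha0)⁻¹ * (g : GL ι F), ⟨?_, ?_⟩, ?_⟩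
    · show scal (Units.mk0 a ha0)⁻¹ * (g : GL ι F) ∈ Cfsg.isometryGroup F ⇑Q
      rw [mem_isometryGroup]
      intro v
      rw [scal_mul_mulVec, qsmul, mu_spec h.hx, ha, ← mul_assoc]
      rw [Units.val_inv_eq_inv_val, Units.val_mk0]
      field_simp
    · show (scal (Units.mk0 a ha0)⁻¹ * (g : GL ι F)).det = 1
      rw [map_mul, det_scal, (h.eps_eq_one g).1 h1, hm, h.card, ← pow_two, ← pow_mul, inv_pow, inv_mul_cancel]
    · rw [← mul_assoc, ← map_mul, mul_inv_cancel, map_one, one_mul]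
  · rintro ⟨a, s, hs, hg⟩
    have hm : mu h.hx g = a * a := by
      apply mu_eq
      intro v
      rw [hg, scal_mul_mulVec, qsmul, (mem_isometryGroup Q).1 hs.1, Units.val_mul]
    refine Prod.ext ?_ ?_
    · show h.eps g = 1
      rw [h.eps_eq_one, hm, hg, map_mul, det_scal, h.card]
      have : s.det = 1 := hs.2
      rw [this, mul_one, pow_mul, pow_two]
    · show h.cl g = 1
      rw [h.cl_apply, hm, Units.val_mul, chi_sq]

end ev

end CfsgLib.Even27
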