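import Cfsg.Agent.LibSpinApp27

set_option autoImplicit false

/-! The spinor norm of `-1` and the discriminant. -/

namespace CfsgLib.Spinor27

open Cfsg.Agent.H22 Module

section neg
variable {F V : Type*} [Field F] [AddCommGroup V] [Module F V] [FiniteDimensional F V] {Q : QuadraticForm F V}

theorem neg_list {ι : Type*} [DecidableEq ι] (v : ι → V) (hv : ∀ i, Q (v i) ≠ 0) (ho : ∀ i j, i ≠ j → QuadraticMap.polar Q (v i) (v j) = 0)
    (L : List ι) (hL : L.Nodup) (j : ι) :
    ((L.map fun i => oRefl Q (v i) (hv i)).prod).1 (v j) = if j ∈ L then - v j else v j := by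
  induction L with
  | nil => simp
  | cons a L ih =>
    rw [List.nodup_cons] at hL
    rw [List.map_cons, List.prod_cons, og_mul_apply, ih hL.2]
    by_cases hja : j = a
    · subst hja
      rw [if_neg hL.1, if_pos (by simp), oRefl_apply, pself, mul_comm 2, inv_mul_cancel_left₀ (hv j), two_smul]
      abel
    · by_cases hjL : j ∈ L
      · rw [if_pos hjL, if_pos (by simp [hjL]), map_neg, oRefl_apply, ho a j (Ne.symm hja), mul_zero, zero_smul, sub_zero]
      · rw [if_neg hjL, if_neg (by simp [hja, hjL]), oRefl_apply, ho a j (Ne.symm hja), mul_zero, zero_smul, sub_zero]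

theorem exists_ortho_basis (h2 : (2 : F) ≠ 0) (hQ : (QuadraticMap.polarBilin Q).Nondegenerate) {n : ℕ} (hn : finrank F V = n) :
    ∃ v : Basis (Fin n) F V, (∀ i, Q (v i) ≠ 0) ∧ ∀ i j, i ≠ j → QuadraticMap.polar Q (v i) (v j) = 0 := by
  subst hn
  haveI : Invertible (2 : F) := invertibleOfNonzero h2
  have hsym : (QuadraticMap.polarBilin Q).IsSymm := ⟨fun x y => by simp [QuadraticMap.polar_comm]⟩
  obtain ⟨v, hv⟩ := LinearMap.BilinForm.exists_orthogonal_basis hsym
  have ho : ∀ i j, i ≠ j → QuadraticMap.polar Q (v i) (v j) = 0 := fun i j hij => hv hij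
  refine ⟨v, fun i h0 => ?_, ho⟩
  have h1 : v i = 0 := by
    apply hQ.1
    intro y
    have h3 : (QuadraticMap.polarBilin Q) (v i) = 0 := by
      apply v.ext
      intro j
      by_cases hij : i = j
      · subst hij
        show QuadraticMap.polar Q (v i) (v i) = 0
        rw [pself, h0, mul_zero]
      · exact ho i j hij
    rw [h3]; rfl
  exact v.ne_zero i h1

end neg

section negF
variable {F V : Type*} [Field F] [Fintype F] [AddCommGroup V] [Module F V] [FiniteDimensional F V] {Q : QuadraticForm F V}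

theorem neg_mem_iff (h2 : (2 : F) ≠ 0) (hQ : (QuadraticMap.polarBilin Q).Nondegenerate) (h : 2 ≤ finrank F V) {n : ℕ}
    (v : Basis (Fin n) F V) (hv : ∀ i, Q (v i) ≠ 0) (ho : ∀ i j, i ≠ j → QuadraticMap.polar Q (v i) (v j) = 0)
    (g : OGrp Q) (hg : ∀ x, g.1 x = -x) : g ∈ commutator (OGrp Q) ↔ (Even n ∧ IsSquare (∏ i, Q (v i))) := by
  have h1 : g = (((List.finRange n).map fun i => (⟨v i, hv i⟩ : {v : V // Q v ≠ 0})).map fun v => oRefl Q v.1 v.2).prod := by
    apply Subtype.ext
    apply LinearEquiv.toLinearMap_injective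
    apply v.ext
    intro j
    have h3 := neg_list (fun i => v i) hv ho (List.finRange n) (List.nodup_finRange n) j
    rw [if_pos (List.mem_finRange j)] at h3
    rw [List.map_map]
    exact (hg (v j)).trans h3.symm
  rw [h1, refl_prod_mem h2 hQ h, List.length_map, List.length_finRange, List.map_map]
  have h3 : (List.map ((fun v : {v : V // Q v ≠ 0} => Q v.1) ∘ fun i => (⟨v i, hv i⟩ : {v : V // Q v ≠ 0})) (List.finRange n)).prod = ∏ i, Q (v i) := by
    rw [← List.ofFn_eq_map, List.prod_ofFn]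
    rfl
  rw [h3]

theorem gram_det {n : ℕ} (b v : Basis (Fin n) F V) (ho : ∀ i j, i ≠ j → QuadraticMap.polar Q (v i) (v j) = 0) :
    ∃ c : F, c ≠ 0 ∧ c ^ 2 * (Matrix.of fun i j => QuadraticMap.polar Q (b i) (b j)).det = 2 ^ n * ∏ i, Q (v i) := by
  have h1 := LinearMap.BilinForm.toMatrix_mul_basis_toMatrix (b := b) v (QuadraticMap.polarBilin Q)
  have h3 := congrArg Matrix.det h1
  rw [Matrix.det_mul, Matrix.det_mul, Matrix.det_transpose] at h3
  have h4 : LinearMap.BilinForm.toMatrix b (QuadraticMap.polarBilin Q) = Matrix.of fun i j => QuadraticMap.polar Q (b i) (b j) := by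
    ext i j
    rw [LinearMap.BilinForm.toMatrix_apply]; rfl
  have h5 : LinearMap.BilinForm.toMatrix v (QuadraticMap.polarBilin Q) = Matrix.diagonal fun i => 2 * Q (v i) := by
    ext i j
    rw [LinearMap.BilinForm.toMatrix_apply]
    by_cases hij : i = j
    · subst hij
      rw [Matrix.diagonal_apply_eq]
      exact pself _ _
    · rw [Matrix.diagonal_apply_ne _ hij]
      exact ho i j hij
  rw [h4, h5, Matrix.det_diagonal, Finset.prod_mul_distrib, Finset.prod_const, Finset.card_univ, Fintype.card_fin] at h3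
  refine ⟨(b.toMatrix v).det, ?_, by rw [← h3]; ring⟩
  intro h0
  have h6 := b.toMatrix_mul_toMatrix_flip v
  have h7 := congrArg Matrix.det h6
  rw [Matrix.det_mul, h0, zero_mul, Matrix.det_one] at h7
  exact zero_ne_one h7

theorem gram_square_iff (h2 : (2 : F) ≠ 0) {n : ℕ} (he : Even n) (b v : Basis (Fin n) F V)
    (ho : ∀ i j, i ≠ j → QuadraticMap.polar Q (v i) (v j) = 0) :
    IsSquare (Matrix.of fun i j => QuadraticMap.polar Q (b i) (b j)).det ↔ IsSquare (∏ i, Q (v i)) := by
  obtain ⟨c, hc, h⟩ := gram_det b v ho (Q := Q)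
  obtain ⟨k, rfl⟩ := he
  rw [pow_add, pow_two] at h
  rw [← isSquare_mul_iff (mul_ne_zero hc hc) ⟨c, rfl⟩, h,
    isSquare_mul_iff (mul_ne_zero (pow_ne_zero _ h2) (pow_ne_zero _ h2)) ⟨_, rfl⟩]

end negF

end CfsgLib.Spinor27
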