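import Cfsg.Agent.LibEven27c
import Cfsg.Agent.LibSpinNeg27

set_option autoImplicit false

/-! Even-dimensional orthogonal groups in odd characteristic: the quotients by the inner automorphisms. -/

namespace CfsgLib.Even27

open Cfsg.Agent.H22 CfsgLib.Cls27 CfsgLib.Semi27 CfsgLib.Lift27 CfsgLib.RhoO27 CfsgLib.AutO27 CfsgLib.Spinor27 CfsgLib.Small27 Module Matrix

section
variable {F : Type*} [Field F] [Fintype F] {ι : Type} [Fintype ι] [DecidableEq ι] {Q : QuadraticForm F (ι → F)} {n : ℕ}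

/-- `-1` as isometry -/
noncomputable def negI (Q : QuadraticForm F (ι → F)) : Cfsg.isometryGroup F ⇑Q :=
  ⟨scal (-1), by
    rw [mem_isometryGroup]
    intro v
    rw [scal_mulVec, qsmul]
    simp⟩

theorem negI_coe : ((negI Q : Cfsg.isometryGroup F ⇑Q) : GL ι F) = scal (-1) := rfl

theorem Ev.det_negI (h : Ev Q n) : ((negI Q : Cfsg.isometryGroup F ⇑Q) : GL ι F).det = 1 := by
  rw [negI_coe, det_scal, h.card, pow_mul]
  simp

/-- the spinor norm for a structure `Ev` -/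
noncomputable def Ev.sp (h : Ev Q n) : Cfsg.isometryGroup F ⇑Q →* ℤˣ := spinM h.h2 h.nd h.fr

theorem Ev.mem_omega (h : Ev Q n) (g : Cfsg.isometryGroup F ⇑Q) : g ∈ Cfsg.Omega F ⇑Q ↔ (g : GL ι F).det = 1 ∧ h.sp g = 1 :=
  mem_omega_M h.h2 h.nd h.fr g

theorem Ev.sp_rfM (h : Ev Q n) (v : ι → F) (hv : Q v ≠ 0) : h.sp (rfM Q v hv) = chi (Q v) := spinM_rfM h.h2 h.nd h.fr v hv

/-- is `-1` in `Ω`? -/
def NegIn (Q : QuadraticForm F (ι → F)) : Prop := ∃ g : ↥(Cfsg.isometryGroup F ⇑Q), g ∈ Cfsg.Omega F ⇑Q ∧ ((g : GL ι F) : Matrix ι ι F) = -1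

theorem Ev.negIn_iff (h : Ev Q n) : NegIn Q ↔ h.sp (negI Q) = 1 := by
  have h1 : (((negI Q : Cfsg.isometryGroup F ⇑Q) : GL ι F) : Matrix ι ι F) = -1 := by
    show Matrix.scalar ι (((-1 : Fˣ) : F)) = -1
    rw [Units.val_neg, Units.val_one, map_neg, map_one]
  constructor
  · rintro ⟨g, hg, hg1⟩
    have h3 : g = negI Q := by
      apply Subtype.ext
      apply Units.ext
      rw [hg1, h1]
    rw [← h3]
    exact ((h.mem_omega g).1 hg).2
  · intro h3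
    exact ⟨negI Q, (h.mem_omega _).2 ⟨h.det_negI, h3⟩, h1⟩

theorem Ev.scal_cases (h : Ev Q n) {a b : Fˣ} {s s' : Cfsg.isometryGroup F ⇑Q} (hs : scal a * (s : GL ι F) = scal b * (s' : GL ι F)) :
    (a = b ∧ s = s') ∨ (a = -b ∧ s = negI Q * s') := by
  have h1 : a * a = b * b := by
    obtain ⟨x, hx⟩ := h.hx
    have e1 : Q (((scal a * (s : GL ι F) : GL ι F) : Matrix ι ι F) *ᵥ x) = (a * a : F) * Q x := by
      rw [scal_mul_mulVec, qsmul, (mem_isometryGroup Q).1 s.2]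
    have e2 : Q (((scal b * (s' : GL ι F) : GL ι F) : Matrix ι ι F) *ᵥ x) = (b * b : F) * Q x := by
      rw [scal_mul_mulVec, qsmul, (mem_isometryGroup Q).1 s'.2]
    rw [hs, e2] at e1
    apply Units.ext
    exact (mul_right_cancel₀ hx e1).symm
  have h3 : ((a : F) - b) * (a + b) = 0 := by
    have := congrArg Units.val h1
    rw [Units.val_mul, Units.val_mul] at this
    linear_combination this
  rcases mul_eq_zero.1 h3 with h4 | h4
  · left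
    have hab : a = b := Units.ext (sub_eq_zero.1 h4)
    refine ⟨hab, Subtype.ext ?_⟩
    rw [hab] at hs
    exact mul_left_cancel hs
  · right
    have hab : a = -b := by
      apply Units.ext
      rw [Units.val_neg]
      linear_combination h4
    refine ⟨hab, Subtype.ext ?_⟩
    rw [Subgroup.coe_mul, negI_coe]
    have h5 : (scal (-b) : GL ι F) = scal b * scal (-1) := by
      rw [← map_mul]; congr 1; simp
    rw [hab, h5, mul_assoc] at hs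
    have h6 := mul_left_cancel hs
    rw [← h6, ← mul_assoc, ← map_mul]
    simp

variable {e f : Fin 3 → (ι → F)} {u : ι → F}

theorem eq_scal_one (s : GL ι F) : s = scal (1 : Fˣ) * s := by
  have h : (scal (1 : Fˣ) : GL ι F) = 1 := by
    have h1 : (scal (1 * 1 : Fˣ) : GL ι F) = scal 1 * scal 1 := by rw [← map_mul]
    rw [one_mul] at h1
    exact (mul_eq_left.1 h1.symm)
  rw [h, one_mul]

/-- the similarities inducing inner automorphisms -/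
noncomputable def KI (Q : QuadraticForm F (ι → F)) : Subgroup (GOs Q) := (Cfsg.Inn (Cfsg.POmega F ⇑Q)).comap (rho (GOs Q) le_rfl)

instance : (KI Q).Normal := by unfold KI; infer_instance

theorem mem_KI (hG : Gd Q e f u) (g : GOs Q) : g ∈ KI Q ↔ ∃ (a : Fˣ) (s : Cfsg.Omega F ⇑Q), (g : GL ι F) = scal a * ((s : Cfsg.isometryGroup F ⇑Q) : GL ι F) := by
  show rho (GOs Q) le_rfl g ∈ Cfsg.Inn _ ↔ _
  rw [rho_def, mem_inn' hG]
  exact ⟨fun h => h.2, fun h => ⟨rfl, h⟩⟩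

/-- membership for `±` case -/
theorem Ev.mem_KI_iff (h : Ev Q n) (hG : Gd Q e f u) (hneg : NegIn Q) {g : GOs Q} {a : Fˣ} {s : Cfsg.isometryGroup F ⇑Q} (hs : (s : GL ι F).det = 1)
    (hg : (g : GL ι F) = scal a * (s : GL ι F)) : g ∈ KI Q ↔ h.sp s = 1 := by
  rw [mem_KI hG]
  rw [h.negIn_iff] at hneg
  constructor
  · rintro ⟨b, s', hs'⟩
    have hs1 := ((h.mem_omega s'.1).1 s'.2).2
    rcases h.scal_cases (hg.symm.trans hs') with ⟨-, h1⟩ | ⟨-, h1⟩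
    · rw [h1, hs1]
    · rw [h1, map_mul, hneg, hs1, mul_one]
  · intro h1
    exact ⟨a, ⟨s, (h.mem_omega s).2 ⟨hs, h1⟩⟩, hg⟩

theorem Ev.mem_KI_neg (h : Ev Q n) (hG : Gd Q e f u) (hneg : ¬ NegIn Q) {g : GOs Q} {a : Fˣ} {s : Cfsg.isometryGroup F ⇑Q} (hs : (s : GL ι F).det = 1)
    (hg : (g : GL ι F) = scal a * (s : GL ι F)) : g ∈ KI Q := by
  rw [mem_KI hG]
  rw [h.negIn_iff] at hneg
  have hneg' := units_ne hneg
  rcases Int.units_eq_one_or (h.sp s) with h1 | h1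
  · exact ⟨a, ⟨s, (h.mem_omega s).2 ⟨hs, h1⟩⟩, hg⟩
  · refine ⟨-a, ⟨negI Q * s, (h.mem_omega _).2 ⟨?_, ?_⟩⟩, ?_⟩
    · rw [Subgroup.coe_mul, map_mul, hs, h.det_negI, mul_one]
    · rw [map_mul, hneg', h1]; rfl
    · show _ = scal (-a) * ((negI Q * s : Cfsg.isometryGroup F ⇑Q) : GL ι F)
      rw [hg, Subgroup.coe_mul, negI_coe, ← mul_assoc, ← map_mul]
      congr 2
      simp

theorem KI_le (h : Ev Q n) (hG : Gd Q e f u) : KI Q ≤ h.ch.ker := by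
  intro g hg
  obtain ⟨a, s, hs⟩ := (mem_KI hG g).1 hg
  rw [h.mem_ch_ker]
  exact ⟨a, _, ⟨s.1.2, ((h.mem_omega s.1).1 s.2).1⟩, hs⟩

/-- automorphisms induced by a subgroup -/
theorem range_eq2 (Γ : Subgroup (GL ι F)) (hΓ : Γ ≤ GOs Q) :
    Cfsg.autSubgroupOf (fun β : Cfsg.POmega F ⇑Q ≃* Cfsg.POmega F ⇑Q => ∃ g : GL ι F, g ∈ Γ ∧ Cfsg.IsInducedBySemilinearPOmega ⇑Q g (RingEquiv.refl F) β) =
      (rho Γ hΓ).range := by
  apply le_antisymm
  · refine (Subgroup.closure_le _).2 ?_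
    rintro β ⟨g, hg, h⟩
    exact ⟨⟨g, hg⟩, ((isInd_iff (x := SemidirectProduct.inl g) (inl_mem_iff.2 (hΓ hg)) β).1 h).symm⟩
  · rintro _ ⟨g, rfl⟩
    exact Subgroup.subset_closure ⟨g.1, g.2, (isInd_iff (x := SemidirectProduct.inl g.1) (inl_mem_iff.2 (hΓ g.2)) _).2 rfl⟩

theorem pso_eq : Cfsg.psoAut F ⇑Q = (rho (SOg Q) SO_le).range := range_eq2 _ _

theorem po_eq : Cfsg.poAut F ⇑Q = (rho (Cfsg.isometryGroup F ⇑Q) iso_le).range := range_eq2 _ _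

theorem range_eq3 (Γ' : Subgroup (GOs Q)) (P : GL ι F → Prop) (hP : ∀ g : GOs Q, g ∈ Γ' ↔ P g) :
    Cfsg.autSubgroupOf (fun β : Cfsg.POmega F ⇑Q ≃* Cfsg.POmega F ⇑Q =>
      ∃ g : GL ι F, g ∈ Cfsg.Geo.quadSimilarityGroup (F := F) ⇑Q ∧ P g ∧ Cfsg.IsInducedBySemilinearPOmega ⇑Q g (RingEquiv.refl F) β) =
      Γ'.map (rho (GOs Q) le_rfl) := by
  apply le_antisymm
  · refine (Subgroup.closure_le _).2 ?_
    rintro β ⟨g, hg, hPg, h⟩
    exact ⟨⟨g, hg⟩, (hP ⟨g, hg⟩).2 hPg, ((isInd_iff (x := SemidirectProduct.inl g) (inl_mem_iff.2 hg) β).1 h).symm⟩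
  · rintro _ ⟨g, hg, rfl⟩
    exact Subgroup.subset_closure ⟨g.1, g.2, (hP g).1 hg, (isInd_iff (x := SemidirectProduct.inl g.1) (inl_mem_iff.2 g.2) _).2 rfl⟩

theorem pso_comap (h : Ev Q n) (hG : Gd Q e f u) : (Cfsg.psoAut F ⇑Q).comap (rho (GOs Q) le_rfl) = h.ch.ker := by
  ext g
  rw [Subgroup.mem_comap, pso_eq, h.mem_ch_ker]
  constructor
  · rintro ⟨s, hs⟩
    rw [rho_def, rho_def] at hs
    obtain ⟨-, a, ha⟩ := (R_eq_iff' hG _ _).1 hs.symm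
    exact ⟨a, s.1, s.2, ha⟩
  · rintro ⟨a, s, hs, hg⟩
    refine ⟨⟨s, hs⟩, ?_⟩
    rw [rho_def, rho_def]
    symm
    exact (R_eq_iff' hG _ _).2 ⟨rfl, a, hg⟩

theorem pso_le : Cfsg.psoAut F ⇑Q ≤ (rho (GOs Q) le_rfl).range := by
  rw [pso_eq]
  rintro _ ⟨s, rfl⟩
  exact ⟨⟨s.1, SO_le s.2⟩, rfl⟩

theorem map_ker (h : Ev Q n) (hG : Gd Q e f u) : h.ch.ker.map (rho (GOs Q) le_rfl) = Cfsg.psoAut F ⇑Q := by
  rw [← pso_comap h hG, Subgroup.map_comap_eq]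
  exact inf_eq_right.2 pso_le

/-- the spinor norm on `SO` -/
noncomputable def Ev.spS (h : Ev Q n) : SOg Q →* ℤˣ := h.sp.comp (Subgroup.inclusion (fun _ hg => hg.1 : SOg Q ≤ Cfsg.isometryGroup F ⇑Q))

theorem Ev.spS_surj (h : Ev Q n) : Function.Surjective h.spS := by
  intro z
  rcases Int.units_eq_one_or z with rfl | rfl
  · exact ⟨1, map_one _⟩
  · obtain ⟨c, hc⟩ := h.exists_nonsq
    obtain ⟨v1, hv1⟩ := exists_norm_odd h.h2 h.nd h.fr 1
    obtain ⟨v2, hv2⟩ := exists_norm_odd h.h2 h.nd h.fr (c : F)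
    have w1 : Q v1 ≠ 0 := by rw [hv1]; exact one_ne_zero
    have w2 : Q v2 ≠ 0 := by rw [hv2]; exact c.ne_zero
    refine ⟨⟨((rfM Q v1 w1 * rfM Q v2 w2 : Cfsg.isometryGroup F ⇑Q) : GL ι F), Subtype.mem _, ?_⟩, ?_⟩
    · show ((rfM Q v1 w1 * rfM Q v2 w2 : Cfsg.isometryGroup F ⇑Q) : GL ι F).det = 1
      rw [Subgroup.coe_mul, map_mul, det_rfM, det_rfM]
      simp
    · show h.sp (rfM Q v1 w1 * rfM Q v2 w2) = -1
      rw [map_mul, h.sp_rfM, h.sp_rfM, hv1, hv2, chi_one, one_mul, chi_eq_neg]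
      exact hc

theorem Ev.relIndex_pso (h : Ev Q n) (hG : Gd Q e f u) :
    (NegIn Q → (Cfsg.Inn (Cfsg.POmega F ⇑Q)).relIndex (Cfsg.psoAut F ⇑Q) = 2) ∧
    (¬ NegIn Q → (Cfsg.Inn (Cfsg.POmega F ⇑Q)).relIndex (Cfsg.psoAut F ⇑Q) = 1) := by
  rw [pso_eq, ← Subgroup.index_comap]
  constructor
  · intro hneg
    have h1 : (Cfsg.Inn (Cfsg.POmega F ⇑Q)).comap (rho (SOg Q) SO_le) = h.spS.ker := by
      ext s
      rw [MonoidHom.mem_ker]
      show (⟨s.1, SO_le s.2⟩ : GOs Q) ∈ KI Q ↔ _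
      exact h.mem_KI_iff hG hneg (a := 1) (s := ⟨s.1, s.2.1⟩) s.2.2 (eq_scal_one s.1)
    rw [h1, Subgroup.index_ker, MonoidHom.range_eq_top.2 h.spS_surj]
    simp [Nat.card_eq_fintype_card]
  · intro hneg
    rw [Subgroup.index_eq_one, eq_top_iff]
    intro s _
    show (⟨s.1, SO_le s.2⟩ : GOs Q) ∈ KI Q
    exact h.mem_KI_neg hG hneg (a := 1) (s := ⟨s.1, s.2.1⟩) s.2.2 (eq_scal_one s.1)

theorem Ev.KI_relIndex (h : Ev Q n) (hG : Gd Q e f u) :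
    (NegIn Q → (KI Q).relIndex h.ch.ker = 2) ∧ (¬ NegIn Q → (KI Q).relIndex h.ch.ker = 1) := by
  unfold KI
  rw [Subgroup.relIndex_comap, map_ker h hG]
  exact h.relIndex_pso hG

theorem Ev.KI_index (h : Ev Q n) (hG : Gd Q e f u) : (NegIn Q → (KI Q).index = 8) ∧ (¬ NegIn Q → (KI Q).index = 4) := by
  have h1 := Subgroup.relIndex_mul_index (KI_le h hG)
  rw [h.ch_ker_index] at h1
  constructor
  · intro hn
    rw [(h.KI_relIndex hG).1 hn] at h1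
    exact h1.symm
  · intro hn
    rw [(h.KI_relIndex hG).2 hn] at h1
    exact h1.symm

theorem ker_le_eps (h : Ev Q n) : h.ch.ker ≤ h.eps.ker := by
  intro g hg
  exact congrArg Prod.fst (MonoidHom.mem_ker.1 hg)

theorem Ev.KI_relIndex_eps (h : Ev Q n) (hG : Gd Q e f u) :
    (NegIn Q → (KI Q).relIndex h.eps.ker = 4) ∧ (¬ NegIn Q → (KI Q).relIndex h.eps.ker = 2) := by
  have h1 := Subgroup.relIndex_mul_index ((KI_le h hG).trans (ker_le_eps h))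
  rw [h.eps_ker_index] at h1
  constructor
  · intro hn
    rw [(h.KI_index hG).1 hn] at h1
    omega
  · intro hn
    rw [(h.KI_index hG).2 hn] at h1
    omega

end

end CfsgLib.Even27
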