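import Cfsg.Agent.LibEven27d

set_option autoImplicit false

/-! Even-dimensional orthogonal groups in odd characteristic: structure of the quotients. -/

namespace CfsgLib.Even27

open Cfsg.Agent.H22 CfsgLib.Cls27 CfsgLib.Semi27 CfsgLib.Lift27 CfsgLib.RhoO27 CfsgLib.AutO27 CfsgLib.Spinor27 CfsgLib.Small27 Module Matrix

section
variable {F : Type*} [Field F] [Fintype F] {ι : Type} [Fintype ι] [DecidableEq ι] {Q : QuadraticForm F (ι → F)} {n : ℕ}

theorem rfM_mulVec (v : ι → F) (hv : Q v ≠ 0) (x : ι → F) :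
    (((rfM Q v hv : Cfsg.isometryGroup F ⇑Q) : GL ι F) : Matrix ι ι F) *ᵥ x = x - ((Q v)⁻¹ * QuadraticMap.polar Q v x) • v := by
  rw [rfM_coe, reflectionMatrix_mulVec]

theorem gl_ext {g h : GL ι F} (H : ∀ x : ι → F, (g : Matrix ι ι F) *ᵥ x = (h : Matrix ι ι F) *ᵥ x) : g = h :=
  Units.ext (mat_ext H)

theorem polar_sim {g : GL ι F} {c : F} (hg : ∀ v, Q ((g : Matrix ι ι F) *ᵥ v) = c * Q v) (x y : ι → F) :
    QuadraticMap.polar Q ((g : Matrix ι ι F) *ᵥ x) ((g : Matrix ι ι F) *ᵥ y) = c * QuadraticMap.polar Q x y := by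
  unfold QuadraticMap.polar
  rw [← mulVec_add, hg, hg, hg]; ring

/-- conjugating a reflection by a similarity -/
theorem conj_rfM {g : GL ι F} {c : Fˣ} (hg : ∀ v, Q ((g : Matrix ι ι F) *ᵥ v) = c * Q v) (v : ι → F) (hv : Q v ≠ 0) (hv' : Q ((g : Matrix ι ι F) *ᵥ v) ≠ 0) :
    g * ((rfM Q v hv : Cfsg.isometryGroup F ⇑Q) : GL ι F) * g⁻¹ = ((rfM Q ((g : Matrix ι ι F) *ᵥ v) hv' : Cfsg.isometryGroup F ⇑Q) : GL ι F) := by
  rw [mul_inv_eq_iff_eq_mul]
  apply gl_ext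
  intro x
  rw [Units.val_mul, Units.val_mul, ← mulVec_mulVec, ← mulVec_mulVec, rfM_mulVec, rfM_mulVec, polar_sim hg, hg, mulVec_sub, mulVec_smul]
  congr 2
  have := c.ne_zero
  field_simp

variable {e f : Fin 3 → (ι → F)} {u : ι → F}

/-- two reflections whose norms have product a nonsquare -/
theorem Ev.z_notMem (h : Ev Q n) (hG : Gd Q e f u) (hneg : NegIn Q) {v w : ι → F} (hv : Q v ≠ 0) (hw : Q w ≠ 0) (hvw : chi (Q v) * chi (Q w) = -1) :
    (rfG v hv * rfG w hw : GOs Q) ∉ KI Q := by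
  rw [h.mem_KI_iff hG hneg (a := 1) (s := rfM Q v hv * rfM Q w hw) _ (eq_scal_one _)]
  · rw [map_mul, h.sp_rfM, h.sp_rfM, hvw]; decide
  · rw [Subgroup.coe_mul, map_mul, det_rfM, det_rfM]
    simp

theorem comm_mem (hG : Gd Q e f u) {a b : GOs Q} (ha : (a : GL ι F) ∈ Cfsg.isometryGroup F ⇑Q) (hb : (b : GL ι F) ∈ Cfsg.isometryGroup F ⇑Q) :
    a * b * a⁻¹ * b⁻¹ ∈ KI Q := by
  rw [mem_KI hG]
  obtain ⟨A, hA⟩ : ∃ A : Cfsg.isometryGroup F ⇑Q, (A : GL ι F) = a := ⟨⟨_, ha⟩, rfl⟩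
  obtain ⟨B, hB⟩ : ∃ B : Cfsg.isometryGroup F ⇑Q, (B : GL ι F) = b := ⟨⟨_, hb⟩, rfl⟩
  refine ⟨1, ⟨A * B * A⁻¹ * B⁻¹, Subgroup.commutator_mem_commutator (Subgroup.mem_top _) (Subgroup.mem_top _)⟩, ?_⟩
  rw [← eq_scal_one, Subgroup.coe_mul, Subgroup.coe_mul, Subgroup.coe_mul, Subgroup.coe_inv, Subgroup.coe_inv, ← hA, ← hB]
  rfl

/-- `D²` modulo scalars -/
theorem Ev.sq_dec (h : Ev Q n) (D : GOs Q) (hD : h.eps D = 1) :
    ∃ t : Cfsg.isometryGroup F ⇑Q, (t : GL ι F).det = 1 ∧ ((D * D : GOs Q) : GL ι F) = scal (mu h.hx D) * (t : GL ι F) := by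
  obtain ⟨a, s, hs, hg⟩ := (h.mem_ch_ker (D * D)).1 (by
    rw [MonoidHom.mem_ker]
    refine Prod.ext ?_ ?_
    · show h.eps (D * D) = 1
      rw [map_mul, hD, one_mul]
    · show h.cl (D * D) = 1
      rw [map_mul, Int.units_mul_self])
  have h1 : a * a = mu h.hx D * mu h.hx D := by
    rw [← map_mul]
    symm
    apply mu_eq
    intro v
    rw [hg, scal_mul_mulVec, qsmul, (mem_isometryGroup Q).1 hs.1, Units.val_mul]
  have h3 : ((a : F) - mu h.hx D) * (a + mu h.hx D) = 0 := by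
    have := congrArg Units.val h1
    rw [Units.val_mul, Units.val_mul] at this
    linear_combination this
  rcases mul_eq_zero.1 h3 with h4 | h4
  · have hab : a = mu h.hx D := Units.ext (sub_eq_zero.1 h4)
    exact ⟨⟨s, hs.1⟩, hs.2, by rw [hg, hab]⟩
  · have hab : a = -mu h.hx D := by
      apply Units.ext
      rw [Units.val_neg]
      linear_combination h4
    refine ⟨negI Q * ⟨s, hs.1⟩, ?_, ?_⟩
    · rw [Subgroup.coe_mul, map_mul, h.det_negI]
      have : s.det = 1 := hs.2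
      rw [this, mul_one]
    · rw [hg, hab, Subgroup.coe_mul, negI_coe, ← mul_assoc, ← scal_mul]
      congr 2
      simp

theorem Ev.d8 (h : Ev Q n) (hG : Gd Q e f u) (hneg : NegIn Q) : Nonempty (GOs Q ⧸ KI Q ≃* DihedralGroup 4) := by
  obtain ⟨D, hD1, hD2⟩ := h.exists_D
  obtain ⟨x, hx⟩ := h.hx
  have hD1' := hD1
  rw [h.cl_apply] at hD1'
  have hspec := mu_spec h.hx D
  have hDx : Q (((D : GL ι F) : Matrix ι ι F) *ᵥ x) ≠ 0 := by
    rw [hspec]; exact mul_ne_zero (Units.ne_zero _) hx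
  have hconj : D * rfG x hx * D⁻¹ = rfG _ hDx := Subtype.ext (conj_rfM hspec x hx hDx)
  have hchi : chi (Q x) * chi (Q (((D : GL ι F) : Matrix ι ι F) *ᵥ x)) = -1 := by
    rw [hspec, chi_mul h.h2 (Units.ne_zero _) hx, hD1']
    rcases Int.units_eq_one_or (chi (Q x)) with h3 | h3 <;> rw [h3] <;> rfl
  have hz : rfG x hx * (D * rfG x hx * D⁻¹) ∉ KI Q := by
    rw [hconj]
    exact h.z_notMem hG hneg hx hDx hchi
  apply CfsgLib.Small27.d8 (r := (QuotientGroup.mk (rfG x hx) : GOs Q ⧸ KI Q)) (D := QuotientGroup.mk D) (h.KI_index hG |>.1 hneg)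
  · have : rfG x hx * rfG x hx = (1 : GOs Q) := by
      apply Subtype.ext
      apply gl_ext
      intro y
      show (((rfM Q x hx * rfM Q x hx : Cfsg.isometryGroup F ⇑Q) : GL ι F) : Matrix ι ι F) *ᵥ y = _
      have h5 : rfM Q x hx * rfM Q x hx = 1 := by
        unfold rfM
        rw [← map_mul]
        have h6 : oRefl Q x hx * oRefl Q x hx = 1 := by
          have := oRefl_inv x hx
          rw [inv_eq_iff_mul_eq_one] at this
          exact this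
        rw [h6, map_one]
      rw [h5]; rfl
    rw [← QuotientGroup.mk_mul, this]; rfl
  · rw [← QuotientGroup.mk_mul, ← QuotientGroup.mk_inv, ← QuotientGroup.mk_mul, ← QuotientGroup.mk_mul, ← QuotientGroup.mk_mul, hconj]
    have h5 := comm_mem hG (rfG_mem x hx) (rfG_mem _ hDx)
    symm
    rw [QuotientGroup.eq]
    have h6 : (rfG _ hDx * rfG x hx)⁻¹ * (rfG x hx * rfG _ hDx) = (rfG x hx)⁻¹ * (rfG _ hDx)⁻¹ * rfG x hx * rfG _ hDx := by group
    rw [h6]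
    have h7 := comm_mem hG (a := (rfG x hx)⁻¹) (b := (rfG _ hDx)⁻¹) ((Cfsg.isometryGroup F ⇑Q).inv_mem (rfG_mem x hx)) ((Cfsg.isometryGroup F ⇑Q).inv_mem (rfG_mem _ hDx))
    rw [inv_inv, inv_inv] at h7
    exact h7
  · intro h5
    apply hz
    rw [← QuotientGroup.mk_mul, ← QuotientGroup.mk_inv, ← QuotientGroup.mk_mul, ← QuotientGroup.mk_mul] at h5
    exact (QuotientGroup.eq_one_iff _).1 h5
  · obtain ⟨t, ht, hDD⟩ := h.sq_dec D hD2
    have hz2 : h.sp (rfM Q x hx * rfM Q _ hDx) = -1 := by rw [map_mul, h.sp_rfM, h.sp_rfM, hchi]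
    rcases Int.units_eq_one_or (h.sp t) with h5 | h5
    · left
      rw [← QuotientGroup.mk_mul]
      exact (QuotientGroup.eq_one_iff _).2 ((h.mem_KI_iff hG hneg ht hDD).2 h5)
    · right
      rw [← QuotientGroup.mk_mul, ← QuotientGroup.mk_mul, ← QuotientGroup.mk_inv, ← QuotientGroup.mk_mul, ← QuotientGroup.mk_mul, hconj, QuotientGroup.eq]
      rw [h.mem_KI_iff hG hneg (a := (mu h.hx D)⁻¹) (s := t⁻¹ * (rfM Q x hx * rfM Q _ hDx))]
      · rw [map_mul, map_inv, hz2, h5]; rfl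
      · rw [Subgroup.coe_mul, map_mul, Subgroup.coe_inv, map_inv, ht, Subgroup.coe_mul, map_mul, det_rfM, det_rfM]
        simp
      · rw [Subgroup.coe_mul, Subgroup.coe_inv, hDD, _root_.mul_inv_rev]
        have h8 : (scal (mu h.hx D) : GL ι F)⁻¹ = scal (mu h.hx D)⁻¹ := by
          rw [inv_eq_iff_mul_eq_one, ← scal_mul, mul_inv_cancel, scal_one]
        rw [h8, ← scal_comm, mul_assoc]
        rfl

/-- S2722, S2726 -/
theorem Ev.pgo_pso (h : Ev Q n) (hG : Gd Q e f u) : ∃ φ : ↥(Cfsg.pgoAut F ⇑Q) →* Multiplicative (ZMod 2 × ZMod 2), Function.Surjective φ ∧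
    φ.ker = (Cfsg.psoAut F ⇑Q).subgroupOf (Cfsg.pgoAut F ⇑Q) := by
  obtain ⟨e1⟩ := v4 (G := ℤˣ × ℤˣ) (by simp [Nat.card_eq_fintype_card]) (fun g => Prod.ext (Int.units_mul_self _) (Int.units_mul_self _))
  refine exists_phi (rho (GOs Q) le_rfl) _ _ sim_eq ((e1 : ℤˣ × ℤˣ →* _).comp h.ch) (e1.surjective.comp h.ch_surj) ?_
  rw [pso_comap h hG]
  ext g
  rw [MonoidHom.mem_ker, MonoidHom.mem_ker]
  show e1 (h.ch g) = 1 ↔ _
  rw [map_eq_one_iff e1 e1.injective]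

/-- S2724, S2728 -/
theorem Ev.pgo_inn (h : Ev Q n) (hG : Gd Q e f u) :
    (¬ NegIn Q → ∃ φ : ↥(Cfsg.pgoAut F ⇑Q) →* Multiplicative (ZMod 2 × ZMod 2), Function.Surjective φ ∧
      φ.ker = (Cfsg.Inn (Cfsg.POmega F ⇑Q)).subgroupOf (Cfsg.pgoAut F ⇑Q)) ∧
    (NegIn Q → ∃ φ : ↥(Cfsg.pgoAut F ⇑Q) →* DihedralGroup 4, Function.Surjective φ ∧
      φ.ker = (Cfsg.Inn (Cfsg.POmega F ⇑Q)).subgroupOf (Cfsg.pgoAut F ⇑Q)) := by
  constructor
  · intro hneg
    have h1 : Cfsg.Inn (Cfsg.POmega F ⇑Q) = Cfsg.psoAut F ⇑Q := by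
      apply le_antisymm
      · rw [← map_ker h hG]
        have h3 : Cfsg.Inn (Cfsg.POmega F ⇑Q) = (KI Q).map (rho (GOs Q) le_rfl) := by
          unfold KI
          rw [Subgroup.map_comap_eq]
          exact (inf_eq_right.2 inn_le_rho).symm
        rw [h3]
        exact Subgroup.map_mono (KI_le h hG)
      · exact Subgroup.relIndex_eq_one.1 ((h.relIndex_pso hG).2 hneg)
    rw [h1]
    exact h.pgo_pso hG
  · intro hneg
    exact exists_phi_quot (rho (GOs Q) le_rfl) _ _ sim_eq (h.d8 hG hneg)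

/-- the inner-diagonal group modulo inner automorphisms -/
theorem Ev.ind_inn (h : Ev Q n) (hG : Gd Q e f u) {P : Subgroup (MulAut (Cfsg.POmega F ⇑Q))} (hP : P = h.eps.ker.map (rho (GOs Q) le_rfl)) :
    (¬ NegIn Q → ∃ φ : ↥P →* Multiplicative (ZMod 2), Function.Surjective φ ∧ φ.ker = (Cfsg.Inn (Cfsg.POmega F ⇑Q)).subgroupOf P) ∧
    (NegIn Q → ∀ D : GOs Q, h.cl D = -1 → h.eps D = 1 →
      (D * D ∉ KI Q → ∃ φ : ↥P →* Multiplicative (ZMod 4), Function.Surjective φ ∧ φ.ker = (Cfsg.Inn (Cfsg.POmega F ⇑Q)).subgroupOf P) ∧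
      (D * D ∈ KI Q → ∃ φ : ↥P →* Multiplicative (ZMod 2 × ZMod 2), Function.Surjective φ ∧ φ.ker = (Cfsg.Inn (Cfsg.POmega F ⇑Q)).subgroupOf P)) := by
  obtain ⟨ρ, hρ⟩ : ∃ ρ : h.eps.ker →* MulAut (Cfsg.POmega F ⇑Q), ρ = (rho (GOs Q) le_rfl).comp h.eps.ker.subtype := ⟨_, rfl⟩
  have hP' : P = ρ.range := by
    rw [hP, hρ, MonoidHom.range_comp, Subgroup.range_subtype]
  have hcomap : (Cfsg.Inn (Cfsg.POmega F ⇑Q)).comap ρ = (KI Q).subgroupOf h.eps.ker := by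
    rw [hρ]; rfl
  have hidx : ((Cfsg.Inn (Cfsg.POmega F ⇑Q)).comap ρ).index = (KI Q).relIndex h.eps.ker := by
    rw [hcomap]; rfl
  constructor
  · intro hneg
    refine exists_phi_quot ρ _ _ hP' (z2 ?_)
    rw [(h.KI_relIndex_eps hG).2 hneg] at hidx
    exact hidx
  · intro hneg D hD1 hD2
    have hcard : Nat.card (h.eps.ker ⧸ (Cfsg.Inn (Cfsg.POmega F ⇑Q)).comap ρ) = 4 := by
      rw [(h.KI_relIndex_eps hG).1 hneg] at hidx
      exact hidx
    have hmem : ∀ g : h.eps.ker, g ∈ (Cfsg.Inn (Cfsg.POmega F ⇑Q)).comap ρ ↔ (g : GOs Q) ∈ KI Q := by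
      intro g
      rw [hcomap]; rfl
    constructor
    · intro hDD
      refine exists_phi_quot ρ _ _ hP' (z4 hcard (g := QuotientGroup.mk ⟨D, hD2⟩) ?_)
      intro h5
      rw [← QuotientGroup.mk_mul, QuotientGroup.eq_one_iff, hmem] at h5
      exact hDD h5
    · intro hDD
      obtain ⟨s, hs⟩ := h.spS_surj (-1)
      have hs1 : (⟨s.1, SO_le s.2⟩ : GOs Q) ∉ KI Q := by
        rw [h.mem_KI_iff hG hneg (a := 1) (s := ⟨s.1, s.2.1⟩) s.2.2 (eq_scal_one _)]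
        intro h5
        have h6 : h.spS s = 1 := h5
        rw [hs] at h6
        exact absurd h6 (by decide)
      have hker : (⟨s.1, SO_le s.2⟩ : GOs Q) ∈ h.ch.ker := (h.mem_ch_ker _).2 ⟨1, s.1, s.2, eq_scal_one _⟩
      have heps : h.eps (⟨s.1, SO_le s.2⟩ : GOs Q) = 1 := congrArg Prod.fst (MonoidHom.mem_ker.1 hker)
      have hcl : h.cl (⟨s.1, SO_le s.2⟩ : GOs Q) = 1 := congrArg Prod.snd (MonoidHom.mem_ker.1 hker)
      refine exists_phi_quot ρ _ _ hP' (v4 hcard (v4_of hcard (x := QuotientGroup.mk ⟨D, hD2⟩) (y := QuotientGroup.mk ⟨⟨s.1, SO_le s.2⟩, heps⟩) ?_ ?_ ?_ ?_ ?_))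
      · intro h5
        rw [QuotientGroup.eq_one_iff, hmem] at h5
        have h6 := congrArg Prod.snd (MonoidHom.mem_ker.1 (KI_le h hG h5))
        have h7 : h.cl D = 1 := h6
        rw [hD1] at h7
        exact absurd h7 (by decide)
      · intro h5
        rw [QuotientGroup.eq_one_iff, hmem] at h5
        exact hs1 h5
      · intro h5
        rw [QuotientGroup.eq, hmem] at h5
        have h6 := congrArg Prod.snd (MonoidHom.mem_ker.1 (KI_le h hG h5))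
        have h7 : h.cl (D⁻¹ * ⟨s.1, SO_le s.2⟩) = 1 := h6
        rw [map_mul, map_inv, hD1, hcl] at h7
        exact absurd h7 (by decide)
      · rw [← QuotientGroup.mk_mul, QuotientGroup.eq_one_iff, hmem]
        exact hDD
      · rw [← QuotientGroup.mk_mul, QuotientGroup.eq_one_iff, hmem]
        obtain ⟨s₀, hs₀⟩ : ∃ s₀ : Cfsg.isometryGroup F ⇑Q, (s₀ : GL ι F) = s.1 := ⟨⟨s.1, s.2.1⟩, rfl⟩
        obtain ⟨S, hS⟩ : ∃ S : GOs Q, S = ⟨s.1, SO_le s.2⟩ := ⟨_, rfl⟩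
        have hS' : (S : GL ι F) = s.1 := by rw [hS]
        have hdet : (s : GL ι F).det = 1 := s.2.2
        have hfin : S * S ∈ KI Q := by
          refine (h.mem_KI_iff hG hneg (g := S * S) (a := 1) (s := s₀ * s₀) ?_ ?_).2 (by rw [map_mul, Int.units_mul_self])
          · rw [Subgroup.coe_mul, map_mul, hs₀, hdet, one_mul]
          · rw [Subgroup.coe_mul, Subgroup.coe_mul, hS', hs₀, scal_one, one_mul]
        rw [hS] at hfin
        exact hfin

end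

end CfsgLib.Even27
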