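import Cfsg.Agent.LibEven27e
import Cfsg.Agent.LibH22Spin4

set_option autoImplicit false

/-! The plus and minus forms as instances of `Ev`. -/

namespace CfsgLib.Even27

open Cfsg.Agent.H22 CfsgLib.Cls27 CfsgLib.Semi27 CfsgLib.Lift27 CfsgLib.RhoO27 CfsgLib.AutO27 CfsgLib.Spinor27 CfsgLib.Small27 Module Matrix

section plus
variable {F : Type*} [Field F] [Fintype F] {m : ℕ}

local notation "MP" => Matrix (Fin m ⊕ Fin m) (Fin m ⊕ Fin m) F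

theorem ev_qPlus (h2 : (2 : F) ≠ 0) (hm : 1 ≤ m) : Ev (qPlus m F) m where
  nd := nondeg_qPlus m
  card := by simp; omega
  n1 := hm
  sim c := ⟨dC m c, dC_Q c, dC_det c⟩
  h2 := h2

theorem negIn_plus (hodd : Odd (Fintype.card F)) (hm : 1 ≤ m) : NegIn (qPlus m F) ↔ ¬ (Odd m ∧ Fintype.card F % 4 = 3) := by
  have h1 : NegIn (qPlus m F) ↔ Fintype.card F ^ m % 4 = 1 := neg_mem_plus hodd m hm
  rw [h1, pow_mod_four_eq_one hodd, ← Nat.not_even_iff_odd]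
  obtain ⟨r, hr⟩ := hodd
  constructor
  · rintro h ⟨h3, h4⟩
    rcases h with h | h
    · omega
    · exact h3 h
  · intro h
    by_cases he : Even m
    · exact Or.inr he
    · left
      by_contra h5
      exact h ⟨he, by omega⟩

/-- the similarity `dC` -/
noncomputable def dCG (m : ℕ) (c : Fˣ) : GOs (qPlus m F) := ⟨dC m c, c, dC_Q c⟩

theorem mu_dCG (h : Ev (qPlus m F) m) (c : Fˣ) : mu h.hx (dCG m c) = c := mu_eq h.hx (dC_Q c)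

theorem eps_dCG (h : Ev (qPlus m F) m) (c : Fˣ) : h.eps (dCG m c) = 1 := by
  rw [h.eps_eq_one, mu_dCG h]
  exact dC_det c

theorem dCG_sq (h : Ev (qPlus m F) m) {e f : Fin 3 → _} {u : _} (hG : Gd (qPlus m F) e f u) (hneg : NegIn (qPlus m F)) (c : Fˣ) :
    dCG m c * dCG m c ∈ KI (qPlus m F) ↔ chi ((c : F) ^ m) = 1 := by
  obtain ⟨t, ht⟩ : ∃ t : Cfsg.isometryGroup F ⇑(qPlus m F), t = (oIso (qPlus m F)).symm (CfsgLib.Spinor27.levi (Matrix.GeneralLinearGroup.scalar (Fin m) c)) := ⟨_, rfl⟩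
  have hto : oIso (qPlus m F) t = CfsgLib.Spinor27.levi (Matrix.GeneralLinearGroup.scalar (Fin m) c) := by rw [ht, MulEquiv.apply_symm_apply]
  have hsp : h.sp t = chi ((c : F) ^ m) := by
    show spin h.h2 h.nd h.fr (oIso (qPlus m F) t) = _
    rw [hto]
    have h1 := spin_levi h.h2 h.n1 (Matrix.GeneralLinearGroup.scalar (Fin m) c)
    have h3 : (((Matrix.GeneralLinearGroup.scalar (Fin m) c : GL (Fin m) F)) : Matrix (Fin m) (Fin m) F).det = (c : F) ^ m := by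
      show (Matrix.scalar (Fin m) (c : F)).det = _
      rw [Matrix.scalar_apply, Matrix.det_diagonal, Finset.prod_const, Finset.card_univ, Fintype.card_fin]
    rw [h3] at h1
    exact h1
  have hdet : (t : GL (Fin m ⊕ Fin m) F).det = 1 := by
    rw [det_eq_one_iff h.h2 h.nd, hto]
    exact parFun_levi _
  rw [← hsp]
  apply h.mem_KI_iff hG hneg (a := c) hdet
  apply gl_ext
  intro x
  have e1 : ((t : GL (Fin m ⊕ Fin m) F) : Matrix (Fin m ⊕ Fin m) (Fin m ⊕ Fin m) F) *ᵥ x = (oIso (qPlus m F) t).1 x := rfl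
  rw [scal_mul_mulVec, e1, hto, levi_apply, Subgroup.coe_mul, Units.val_mul, ← mulVec_mulVec]
  have e3 : (((Matrix.GeneralLinearGroup.scalar (Fin m) c)⁻¹ : GL (Fin m) F) : Matrix (Fin m) (Fin m) F) = Matrix.scalar (Fin m) (((c⁻¹ : Fˣ)) : F) := by
    rw [← map_inv]; rfl
  rw [e3, fromBlocks_mulVec]
  funext i
  rcases i with i | i
  · have e4 : (((dCG m c : GOs (qPlus m F)) : GL (Fin m ⊕ Fin m) F) : MP) = ((dC m c : GL (Fin m ⊕ Fin m) F) : MP) := rfl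
    rw [e4, dC_inl, dC_inl, Pi.smul_apply, Sum.elim_inl, zero_mulVec, add_zero]
    show _ = (c : F) • ((Matrix.scalar (Fin m) (c : F)) *ᵥ (x ∘ Sum.inl)) i
    rw [Matrix.scalar_apply, mulVec_diagonal]
    rfl
  · have e4 : (((dCG m c : GOs (qPlus m F)) : GL (Fin m ⊕ Fin m) F) : MP) = ((dC m c : GL (Fin m ⊕ Fin m) F) : MP) := rfl
    rw [e4, dC_inr, dC_inr, Pi.smul_apply, Sum.elim_inr, zero_mulVec, zero_add, Matrix.scalar_apply, diagonal_transpose, mulVec_diagonal, smul_eq_mul, ← mul_assoc,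
      ← Units.val_mul, mul_inv_cancel, Units.val_one, one_mul]
    rfl

end plus

section minus
variable {F : Type*} [Field F] [Fintype F] {m : ℕ} {a b : F}

local notation "MM" => Matrix ((Fin m ⊕ Fin m) ⊕ Fin 2) ((Fin m ⊕ Fin m) ⊕ Fin 2) F
local notation "MP" => Matrix (Fin m ⊕ Fin m) (Fin m ⊕ Fin m) F

/-- multiplication in the quadratic extension -/
def mM (a b w0 w1 : F) : Matrix (Fin 2) (Fin 2) F := !![w0, -(b * w1); w1, w0 + a * w1]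

theorem mM_det (w0 w1 : F) : (mM a b w0 w1).det = w0 ^ 2 + a * w0 * w1 + b * w1 ^ 2 := by
  unfold mM
  rw [det_fin_two_of]; ring

/-- the similarity of the minus form -/
noncomputable def dM (m : ℕ) (c : Fˣ) (w0 w1 : F) (hw : w0 ^ 2 + a * w0 * w1 + b * w1 ^ 2 = c) : GL ((Fin m ⊕ Fin m) ⊕ Fin 2) F :=
  Matrix.GeneralLinearGroup.mkOfDetNeZero (fromBlocks ((dC m c : GL (Fin m ⊕ Fin m) F) : Matrix (Fin m ⊕ Fin m) (Fin m ⊕ Fin m) F) 0 0 (mM a b w0 w1)) (by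
    rw [det_fromBlocks_zero₂₁, mM_det, hw]
    exact mul_ne_zero (Units.ne_zero (dC m c : GL (Fin m ⊕ Fin m) F).det) c.ne_zero)

theorem dM_coe (m : ℕ) (c : Fˣ) (w0 w1 : F) (hw : w0 ^ 2 + a * w0 * w1 + b * w1 ^ 2 = c) :
    ((dM m c w0 w1 hw : GL ((Fin m ⊕ Fin m) ⊕ Fin 2) F) : Matrix ((Fin m ⊕ Fin m) ⊕ Fin 2) ((Fin m ⊕ Fin m) ⊕ Fin 2) F) =
      fromBlocks ((dC m c : GL (Fin m ⊕ Fin m) F) : Matrix (Fin m ⊕ Fin m) (Fin m ⊕ Fin m) F) 0 0 (mM a b w0 w1) := rfl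

theorem dM_det (m : ℕ) (c : Fˣ) (w0 w1 : F) (hw : w0 ^ 2 + a * w0 * w1 + b * w1 ^ 2 = c) : (dM m c w0 w1 hw).det = c ^ (m + 1) := by
  apply Units.ext
  show ((dM m c w0 w1 hw : GL ((Fin m ⊕ Fin m) ⊕ Fin 2) F) : Matrix ((Fin m ⊕ Fin m) ⊕ Fin 2) ((Fin m ⊕ Fin m) ⊕ Fin 2) F).det = _
  rw [dM_coe, det_fromBlocks_zero₂₁, mM_det, hw]
  have h1 : ((dC m c : GL (Fin m ⊕ Fin m) F) : Matrix (Fin m ⊕ Fin m) (Fin m ⊕ Fin m) F).det = (c : F) ^ m := by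
    have := congrArg Units.val (dC_det (m := m) c)
    rw [Units.val_pow_eq_pow_val] at this
    exact this
  rw [h1, Units.val_pow_eq_pow_val, pow_succ]

theorem dM_inl (c : Fˣ) (w0 w1 : F) (hw : w0 ^ 2 + a * w0 * w1 + b * w1 ^ 2 = c) (x : (Fin m ⊕ Fin m) ⊕ Fin 2 → F) (i : Fin m) :
    (((dM m c w0 w1 hw : GL ((Fin m ⊕ Fin m) ⊕ Fin 2) F) : MM) *ᵥ x) (.inl (.inl i)) = c * x (.inl (.inl i)) := by
  rw [dM_coe, fromBlocks_mulVec, Sum.elim_inl, zero_mulVec, add_zero, dC_inl]; rfl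

theorem dM_inr (c : Fˣ) (w0 w1 : F) (hw : w0 ^ 2 + a * w0 * w1 + b * w1 ^ 2 = c) (x : (Fin m ⊕ Fin m) ⊕ Fin 2 → F) (i : Fin m) :
    (((dM m c w0 w1 hw : GL ((Fin m ⊕ Fin m) ⊕ Fin 2) F) : MM) *ᵥ x) (.inl (.inr i)) = x (.inl (.inr i)) := by
  rw [dM_coe, fromBlocks_mulVec, Sum.elim_inl, zero_mulVec, add_zero, dC_inr]; rfl

theorem dM_0 (c : Fˣ) (w0 w1 : F) (hw : w0 ^ 2 + a * w0 * w1 + b * w1 ^ 2 = c) (x : (Fin m ⊕ Fin m) ⊕ Fin 2 → F) :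
    (((dM m c w0 w1 hw : GL ((Fin m ⊕ Fin m) ⊕ Fin 2) F) : MM) *ᵥ x) (.inr 0) = w0 * x (.inr 0) - b * w1 * x (.inr 1) := by
  rw [dM_coe, fromBlocks_mulVec, Sum.elim_inr, zero_mulVec, zero_add]
  unfold mM
  simp [Matrix.mulVec, dotProduct, Fin.sum_univ_two]
  ring

theorem dM_1 (c : Fˣ) (w0 w1 : F) (hw : w0 ^ 2 + a * w0 * w1 + b * w1 ^ 2 = c) (x : (Fin m ⊕ Fin m) ⊕ Fin 2 → F) :
    (((dM m c w0 w1 hw : GL ((Fin m ⊕ Fin m) ⊕ Fin 2) F) : MM) *ᵥ x) (.inr 1) = w1 * x (.inr 0) + (w0 + a * w1) * x (.inr 1) := by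
  rw [dM_coe, fromBlocks_mulVec, Sum.elim_inr, zero_mulVec, zero_add]
  unfold mM
  simp [Matrix.mulVec, dotProduct, Fin.sum_univ_two]

theorem dM_Q (c : Fˣ) (w0 w1 : F) (hw : w0 ^ 2 + a * w0 * w1 + b * w1 ^ 2 = c) (x : (Fin m ⊕ Fin m) ⊕ Fin 2 → F) :
    qMinus m F a b (((dM m c w0 w1 hw : GL ((Fin m ⊕ Fin m) ⊕ Fin 2) F) : MM) *ᵥ x) = c * qMinus m F a b x := by
  rw [coe_qMinus]
  unfold Cfsg.quadFormMinus
  rw [dM_0, dM_1, ← hw, mul_add, mul_add, mul_add, Finset.mul_sum]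
  have : ∀ i : Fin m, (((dM m c w0 w1 hw : GL ((Fin m ⊕ Fin m) ⊕ Fin 2) F) : MM) *ᵥ x) (.inl (.inl i)) *
      (((dM m c w0 w1 hw : GL ((Fin m ⊕ Fin m) ⊕ Fin 2) F) : MM) *ᵥ x) (.inl (.inr i)) =
      (w0 ^ 2 + a * w0 * w1 + b * w1 ^ 2) * (x (.inl (.inl i)) * x (.inl (.inr i))) := by
    intro i
    rw [dM_inl, dM_inr, hw]; ring
  simp only [this]
  ring

theorem exists_w (h2 : (2 : F) ≠ 0) (hab : ∀ z₁ z₂ : F, z₁ ^ 2 + a * z₁ * z₂ + b * z₂ ^ 2 = 0 → z₁ = 0 ∧ z₂ = 0) (c : F) :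
    ∃ w0 w1 : F, w0 ^ 2 + a * w0 * w1 + b * w1 ^ 2 = c := by
  obtain ⟨v, hv⟩ := exists_norm_odd h2 (nondeg_qMinus 0 a b hab) (by simp) c
  refine ⟨v (.inr 0), v (.inr 1), ?_⟩
  rw [← hv, coe_qMinus]
  unfold Cfsg.quadFormMinus
  simp

theorem ev_qMinus (h2 : (2 : F) ≠ 0) (hab : ∀ z₁ z₂ : F, z₁ ^ 2 + a * z₁ * z₂ + b * z₂ ^ 2 = 0 → z₁ = 0 ∧ z₂ = 0) : Ev (qMinus m F a b) (m + 1) where
  nd := nondeg_qMinus m a b hab
  card := by simp; omega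
  n1 := by omega
  sim c := by
    obtain ⟨w0, w1, hw⟩ := exists_w h2 hab (c : F)
    exact ⟨dM m c w0 w1 hw, dM_Q c w0 w1 hw, dM_det m c w0 w1 hw⟩
  h2 := h2

theorem negIn_minus (hodd : Odd (Fintype.card F)) (hab : ∀ z₁ z₂ : F, z₁ ^ 2 + a * z₁ * z₂ + b * z₂ ^ 2 = 0 → z₁ = 0 ∧ z₂ = 0) :
    NegIn (qMinus m F a b) ↔ (Even m ∧ Fintype.card F % 4 = 3) := by
  have h1 : NegIn (qMinus m F a b) ↔ Fintype.card F ^ (m + 1) % 4 = 3 := neg_mem_minus hodd m a b hab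
  rw [h1, pow_mod_four_eq_three hodd, ← Nat.not_even_iff_odd, Nat.even_add_one, not_not, and_comm]

/-- the square of the similarity with multiplier `-1` -/
theorem dM_sq (h2 : (2 : F) ≠ 0) (hab : ∀ z₁ z₂ : F, z₁ ^ 2 + a * z₁ * z₂ + b * z₂ ^ 2 = 0 → z₁ = 0 ∧ z₂ = 0) (w0 w1 : F)
    (hw : w0 ^ 2 + a * w0 * w1 + b * w1 ^ 2 = ((-1 : Fˣ) : F)) :
    ∃ (v u : (Fin m ⊕ Fin m) ⊕ Fin 2 → F) (hv : qMinus m F a b v ≠ 0) (hu : qMinus m F a b u ≠ 0), qMinus m F a b v = a ^ 2 - 4 * b ∧ qMinus m F a b u = 1 ∧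
      dM m (-1) w0 w1 hw * dM m (-1) w0 w1 hw = ((rfM _ v hv * rfM _ u hu : Cfsg.isometryGroup F ⇑(qMinus m F a b)) : GL ((Fin m ⊕ Fin m) ⊕ Fin 2) F) := by
  have hd := disc_ne_zero a b hab
  have hw' : w0 ^ 2 + a * w0 * w1 + b * w1 ^ 2 = -1 := by rw [hw]; simp
  obtain ⟨v, hv⟩ : ∃ v : (Fin m ⊕ Fin m) ⊕ Fin 2 → F, v = Sum.elim (0 : Fin m ⊕ Fin m → F) ![a * w0 + 2 * b * w1, -(2 * w0) - a * w1] := ⟨_, rfl⟩
  obtain ⟨u, hu⟩ : ∃ u : (Fin m ⊕ Fin m) ⊕ Fin 2 → F, u = Sum.elim (0 : Fin m ⊕ Fin m → F) ![1, 0] := ⟨_, rfl⟩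
  have v0 : v (.inr 0) = a * w0 + 2 * b * w1 := by rw [hv]; rfl
  have v1 : v (.inr 1) = -(2 * w0) - a * w1 := by rw [hv]; rfl
  have vl : ∀ i, v (.inl i) = 0 := by intro i; rw [hv]; rfl
  have u0 : u (.inr 0) = 1 := by rw [hu]; rfl
  have u1 : u (.inr 1) = 0 := by rw [hu]; rfl
  have ul : ∀ i, u (.inl i) = 0 := by intro i; rw [hu]; rfl
  have hQv : qMinus m F a b v = a ^ 2 - 4 * b := by
    rw [coe_qMinus]
    unfold Cfsg.quadFormMinus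
    simp only [vl, v0, v1, mul_zero, Finset.sum_const_zero, zero_add]
    linear_combination (4 * b - a ^ 2) * hw'
  have hQu : qMinus m F a b u = 1 := by
    rw [coe_qMinus]
    unfold Cfsg.quadFormMinus
    simp only [ul, u0, u1, mul_zero, Finset.sum_const_zero, zero_add]
    ring
  have hv0 : qMinus m F a b v ≠ 0 := by rw [hQv]; exact hd
  have hu0 : qMinus m F a b u ≠ 0 := by rw [hQu]; exact one_ne_zero
  refine ⟨v, u, hv0, hu0, hQv, hQu, ?_⟩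
  apply gl_ext
  intro x
  rw [Units.val_mul, Subgroup.coe_mul, Units.val_mul, ← mulVec_mulVec, ← mulVec_mulVec, rfM_mulVec, rfM_mulVec, hQv, hQu, inv_one, one_mul]
  have hBu : QuadraticMap.polar (qMinus m F a b) u x = 2 * x (.inr 0) + a * x (.inr 1) := by
    rw [polar_qMinus]
    simp only [ul, u0, u1, zero_mul, mul_zero, Finset.sum_const_zero, add_zero, zero_add, one_mul, mul_one]
  rw [hBu]
  obtain ⟨y, hy⟩ : ∃ y, y = x - (2 * x (.inr 0) + a * x (.inr 1)) • u := ⟨_, rfl⟩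
  have y0 : y (.inr 0) = - x (.inr 0) - a * x (.inr 1) := by
    rw [hy, Pi.sub_apply, Pi.smul_apply, u0, smul_eq_mul]; ring
  have y1 : y (.inr 1) = x (.inr 1) := by
    rw [hy, Pi.sub_apply, Pi.smul_apply, u1, smul_eq_mul]; ring
  have yl : ∀ i, y (.inl i) = x (.inl i) := by
    intro i
    rw [hy, Pi.sub_apply, Pi.smul_apply, ul, smul_zero, sub_zero]
  rw [← hy]
  have hBv : QuadraticMap.polar (qMinus m F a b) v y = 2 * v (.inr 0) * y (.inr 0) + a * (v (.inr 0) * y (.inr 1) + v (.inr 1) * y (.inr 0)) + 2 * b * v (.inr 1) * y (.inr 1) := by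
    rw [polar_qMinus]
    simp only [vl, zero_mul, Finset.sum_const_zero, zero_add]
  rw [hBv]
  have hdi : (a ^ 2 - 4 * b)⁻¹ * (a ^ 2 - 4 * b) = 1 := inv_mul_cancel₀ hd
  funext i
  rcases i with (i | i) | i
  · rw [dM_inl, dM_inl, Pi.sub_apply, Pi.smul_apply, vl, smul_zero, sub_zero, yl]
    simp
  · rw [dM_inr, dM_inr, Pi.sub_apply, Pi.smul_apply, vl, smul_zero, sub_zero, yl]
  · fin_cases i
    · show (((dM m (-1) w0 w1 hw : GL ((Fin m ⊕ Fin m) ⊕ Fin 2) F) : MM) *ᵥ (((dM m (-1) w0 w1 hw : GL ((Fin m ⊕ Fin m) ⊕ Fin 2) F) : MM) *ᵥ x)) (.inr 0) = (y - _ • v) (.inr 0)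
      rw [dM_0, dM_0, dM_1, Pi.sub_apply, Pi.smul_apply, smul_eq_mul, v0, v1, y0, y1]
      generalize (a ^ 2 - 4 * b)⁻¹ = di at hdi
      linear_combination (-(di * (a ^ 2 - 4 * b) * (- x (.inr 0) - a * x (.inr 1)))) * hw' -
        (w0 * (w0 * x (.inr 0) - b * w1 * x (.inr 1)) - b * w1 * (w1 * x (.inr 0) + (w0 + a * w1) * x (.inr 1)) - (- x (.inr 0) - a * x (.inr 1))) * hdi
    · show (((dM m (-1) w0 w1 hw : GL ((Fin m ⊕ Fin m) ⊕ Fin 2) F) : MM) *ᵥ (((dM m (-1) w0 w1 hw : GL ((Fin m ⊕ Fin m) ⊕ Fin 2) F) : MM) *ᵥ x)) (.inr 1) = (y - _ • v) (.inr 1)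
      rw [dM_1, dM_0, dM_1, Pi.sub_apply, Pi.smul_apply, smul_eq_mul, v0, v1, y0, y1]
      generalize (a ^ 2 - 4 * b)⁻¹ = di at hdi
      linear_combination (-(di * (a ^ 2 - 4 * b) * (x (.inr 1)))) * hw' -
        (w1 * (w0 * x (.inr 0) - b * w1 * x (.inr 1)) + (w0 + a * w1) * (w1 * x (.inr 0) + (w0 + a * w1) * x (.inr 1)) - x (.inr 1)) * hdi

end minus

end CfsgLib.Even27
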