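import Mathlib
import Cfsg.Agent.LibExForm4

/-! Heisenberg type groups attached to bilinear forms; existence of extraspecial groups -/

set_option autoImplicit false
set_option linter.all false
open scoped commutatorElement

namespace CfsgLib.ExForm

open CfsgLib.SolvFrat CfsgLib.SolvBasic CfsgLib.QuadF2

universe u v w

/-- the group on `V × ZMod p` with cocycle `β` -/
@[ext] structure Heis {p : ℕ} {V : Type u} [AddCommGroup V] [Module (ZMod p) V]
    (β : LinearMap.BilinForm (ZMod p) V) where
  v : V
  a : ZMod p

namespace Heis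

variable {p : ℕ} {V : Type u} [AddCommGroup V] [Module (ZMod p) V]
  {β : LinearMap.BilinForm (ZMod p) V}

instance : Mul (Heis β) := ⟨fun x y => ⟨x.v + y.v, x.a + y.a + β x.v y.v⟩⟩
instance : One (Heis β) := ⟨⟨0, 0⟩⟩
instance : Inv (Heis β) := ⟨fun x => ⟨-x.v, -x.a + β x.v x.v⟩⟩

theorem mul_v (x y : Heis β) : (x * y).v = x.v + y.v := rfl
theorem mul_a (x y : Heis β) : (x * y).a = x.a + y.a + β x.v y.v := rfl
theorem one_v : (1 : Heis β).v = 0 := rfl
theorem one_a : (1 : Heis β).a = 0 := rfl
theorem inv_v (x : Heis β) : (x⁻¹).v = -x.v := rfl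
theorem inv_a (x : Heis β) : (x⁻¹).a = -x.a + β x.v x.v := rfl

instance : Group (Heis β) :=
  Group.ofLeftAxioms
    (by
      intro x y z
      ext
      · simp only [mul_v, add_assoc]
      · simp only [mul_a, mul_v, map_add, LinearMap.add_apply]; ring)
    (by
      intro x
      ext
      · simp only [mul_v, one_v, zero_add]
      · simp only [mul_a, one_a, one_v, map_zero, LinearMap.zero_apply, zero_add, add_zero])
    (by
      intro x
      ext
      · simp only [mul_v, inv_v, one_v, neg_add_cancel]
      · simp only [mul_a, inv_a, inv_v, one_a, map_neg, LinearMap.neg_apply]; ring)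

/-- equivalence with the product -/
def equivProd : Heis β ≃ V × ZMod p where
  toFun x := (x.v, x.a)
  invFun x := ⟨x.1, x.2⟩
  left_inv _ := rfl
  right_inv _ := rfl

instance [NeZero p] [Finite V] : Finite (Heis β) := Finite.of_equiv _ equivProd.symm

theorem pow_eq (x : Heis β) (n : ℕ) : x ^ n = ⟨n • x.v, n • x.a + (n.choose 2) • β x.v x.v⟩ := by
  induction n with
  | zero =>
    rw [pow_zero]
    ext
    · simp [one_v]
    · simp [one_a]
  | succ n ih =>
    rw [pow_succ, ih]
    ext
    · rw [mul_v]; simp only [add_smul, one_smul]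
    · rw [mul_a]
      simp only [map_nsmul, LinearMap.smul_apply, Nat.choose_succ_succ' n 1, Nat.choose_one_right]
      simp only [nsmul_eq_mul]
      push_cast
      ring

theorem z_pow (n : ℕ) : (⟨0, 1⟩ : Heis β) ^ n = ⟨0, n⟩ := by
  rw [pow_eq]
  ext
  · simp
  · simp

theorem z_pow_val [NeZero p] (a : ZMod p) : (⟨0, 1⟩ : Heis β) ^ a.val = ⟨0, a⟩ := by
  rw [z_pow, ZMod.natCast_val, ZMod.cast_id]

variable (β) in
/-- form data of the Heisenberg group -/
def formData [hp : Fact p.Prime] : FormData p (Heis β) V where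
  π := Heis.v
  z := ⟨0, 1⟩
  B := β - β.flip
  Q := fun v => (p.choose 2) • β v v
  mul := fun _ _ => rfl
  surj := fun v => ⟨⟨v, 0⟩, rfl⟩
  ker := by
    intro x
    constructor
    · intro h
      have : x = (⟨0, 1⟩ : Heis β) ^ x.a.val := by
        rw [z_pow_val]
        ext
        · exact h
        · rfl
      rw [this]
      exact pow_mem (Subgroup.mem_zpowers _) _
    · intro h
      obtain ⟨k, rfl⟩ := Subgroup.mem_zpowers_iff.mp h
      let f : Heis β →* Multiplicative V := MonoidHom.mk' (fun x => Multiplicative.ofAdd x.v)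
        (fun x y => rfl)
      have h1 : f ((⟨0, 1⟩ : Heis β) ^ k) = 1 := by
        rw [map_zpow]
        have : f (⟨0, 1⟩ : Heis β) = 1 := rfl
        rw [this, one_zpow]
      exact h1
  ord := by
    apply orderOf_eq_prime
    · rw [z_pow]
      ext
      · rfl
      · simp [one_a]
    · intro h
      have : (1 : ZMod p) = 0 := congrArg Heis.a h
      exact one_ne_zero this
  central := by
    intro x
    ext
    · simp only [mul_v]; rw [add_comm]
    · simp only [mul_a, map_zero, LinearMap.zero_apply]; ring
  comm := by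
    intro x y
    rw [z_pow_val]
    ext
    · simp only [mul_v, inv_v]; abel
    · simp only [mul_a, mul_v, inv_v, inv_a, map_neg, map_add, LinearMap.add_apply,
        LinearMap.neg_apply, LinearMap.sub_apply, LinearMap.BilinForm.flip_apply]
      ring
  pow := by
    intro x
    rw [z_pow_val, pow_eq]
    ext
    · change p • x.v = 0
      rw [← Nat.cast_smul_eq_nsmul (ZMod p), CharP.cast_eq_zero, zero_smul]
    · change p • x.a + _ = _
      rw [nsmul_eq_mul, CharP.cast_eq_zero, zero_mul, zero_add]

end Heis

/-- recognition of extraspecial groups -/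
theorem FormData.isExtraspecial {p : ℕ} [hp : Fact p.Prime] {E : Type u} [Group E] [Finite E]
    {V : Type v} [AddCommGroup V] [Module (ZMod p) V] [Finite V] (D : FormData p E V)
    (hnd : ∀ v : V, v ≠ 0 → ∃ w, D.B v w ≠ 0) (hnt : ∃ v : V, v ≠ 0) :
    Cfsg.IsExtraspecial p E := by
  have hz : D.z ∈ Subgroup.center E := by
    rw [Subgroup.mem_center_iff]; intro g; exact (D.central g).symm
  have hc : Subgroup.center E = Subgroup.zpowers D.z := by
    apply le_antisymm
    · intro x hx
      rw [← D.ker]
      by_contra hne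
      obtain ⟨w, hw⟩ := hnd _ hne
      obtain ⟨y, rfl⟩ := D.surj w
      apply hw
      apply pow_val_inj D.ord
      rw [← D.comm, ZMod.val_zero, pow_zero]
      rw [CfsgLib.ExtraH28.comm_eq_one_iff]
      exact (Subgroup.mem_center_iff.mp hx y).symm
    · rw [Subgroup.zpowers_le]; exact hz
  refine CfsgLib.ExtraH28.isExtraspecial_of ?_ ?_ ?_ ?_ ?_
  · apply IsPGroup.of_card (n := Module.finrank (ZMod p) V + 1)
    rw [D.card_eq, Module.natCard_eq_pow_finrank (K := ZMod p) (V := V), Nat.card_zmod, pow_succ,
      mul_comm]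
  · rw [hc, Nat.card_zpowers, D.ord]
  · intro x
    rw [D.pow]; exact pow_mem hz _
  · intro x y
    rw [D.comm]; exact pow_mem hz _
  · obtain ⟨v, hv⟩ := hnt
    obtain ⟨w, hw⟩ := hnd v hv
    obtain ⟨x, rfl⟩ := D.surj v
    obtain ⟨y, rfl⟩ := D.surj w
    refine ⟨x, y, fun h => hw ?_⟩
    apply pow_val_inj D.ord
    rw [← D.comm, ZMod.val_zero, pow_zero, CfsgLib.ExtraH28.comm_eq_one_iff]
    exact h

/-- the bilinear form with diagonal `nf m t` -/
noncomputable def βnf (m : ℕ) (t : ZMod 2) : LinearMap.BilinForm (ZMod 2) (Fin m → ZMod 2 × ZMod 2) :=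
  bilinOf (fun w w' => ∑ i, ((w i).1 * (w' i).2 + t * (if i.val + 1 = m then
    (w i).1 * (w' i).1 + (w i).2 * (w' i).2 else 0)))
    (by
      intro x y z
      rw [← Finset.sum_add_distrib]
      apply Finset.sum_congr rfl
      intro i _
      simp only [Pi.add_apply, Prod.fst_add, Prod.snd_add]
      split_ifs <;> ring)
    (by
      intro x y z
      rw [← Finset.sum_add_distrib]
      apply Finset.sum_congr rfl
      intro i _
      simp only [Pi.add_apply, Prod.fst_add, Prod.snd_add]
      split_ifs <;> ring)

theorem βnf_self (m : ℕ) (t : ZMod 2) (w : Fin m → ZMod 2 × ZMod 2) : βnf m t w w = nf m t w := by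
  unfold βnf nf
  rw [bilinOf_apply]
  apply Finset.sum_congr rfl
  intro i _
  rw [CfsgLib.QuadF2.mul_self, CfsgLib.QuadF2.mul_self]

theorem isQ_nf (m : ℕ) (t : ZMod 2) : IsQ (βnf m t - (βnf m t).flip) (nf m t) := by
  have h2 : (2 : ZMod 2) = 0 := by decide
  refine ⟨?_, ?_, ?_⟩
  · intro v
    rw [LinearMap.sub_apply, LinearMap.sub_apply, LinearMap.BilinForm.flip_apply, sub_self]
  · intro v hv
    obtain ⟨i, hi⟩ : ∃ i, v i ≠ 0 := by
      by_contra h
      push Not at h
      exact hv (funext h)
    have key : ∀ (w : Fin m → ZMod 2 × ZMod 2), (βnf m t - (βnf m t).flip) v w =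
        ∑ j, ((v j).1 * (w j).2 + (v j).2 * (w j).1) := by
      intro w
      rw [LinearMap.sub_apply, LinearMap.sub_apply, LinearMap.BilinForm.flip_apply]
      unfold βnf
      rw [bilinOf_apply, bilinOf_apply, ← Finset.sum_sub_distrib]
      apply Finset.sum_congr rfl
      intro j _
      split_ifs
      · generalize (v j).1 = a; generalize (v j).2 = b
        generalize (w j).1 = c; generalize (w j).2 = d
        clear * -
        revert a b c d t; decide
      · generalize (v j).1 = a; generalize (v j).2 = b
        generalize (w j).1 = c; generalize (w j).2 = d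
        clear * -
        revert a b c d t; decide
    by_cases h1 : (v i).1 = 0
    · have h3 : (v i).2 ≠ 0 := fun h3 => hi (Prod.ext h1 h3)
      refine ⟨Pi.single i (1, 0), ?_⟩
      rw [key, Finset.sum_eq_single i]
      · rw [Pi.single_eq_same]
        simpa using h3
      · intro j _ hj
        rw [Pi.single_eq_of_ne hj]; simp
      · intro h; exact absurd (Finset.mem_univ i) h
    · refine ⟨Pi.single i (0, 1), ?_⟩
      rw [key, Finset.sum_eq_single i]
      · rw [Pi.single_eq_same]
        simpa using h1
      · intro j _ hj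
        rw [Pi.single_eq_of_ne hj]; simp
      · intro h; exact absurd (Finset.mem_univ i) h
  · intro v w
    rw [← βnf_self, ← βnf_self, ← βnf_self, map_add, map_add, LinearMap.add_apply,
      LinearMap.add_apply, LinearMap.sub_apply, LinearMap.sub_apply, LinearMap.BilinForm.flip_apply]
    generalize βnf m t v v = a; generalize βnf m t v w = b
    generalize βnf m t w v = c; generalize βnf m t w w = d
    clear * -
    revert a b c d; decide

/-- model extraspecial groups -/
theorem exists_extraspecial_type (m : ℕ) (hm : 1 ≤ m) (t : ZMod 2) :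
    ∃ (E : Type) (_ : Group E) (_ : Finite E), Cfsg.IsExtraspecial 2 E ∧ HasType E m t := by
  let D := Heis.formData (βnf m t)
  have hQ : D.Q = nf m t := by
    funext v
    change (Nat.choose 2 2) • βnf m t v v = _
    rw [βnf_self]; simp
  have hIs : IsQ D.B D.Q := by
    rw [hQ]; exact isQ_nf m t
  refine ⟨Heis (βnf m t), inferInstance, inferInstance, D.isExtraspecial hIs.nd ?_, ?_⟩
  · refine ⟨Pi.single ⟨0, by omega⟩ (1, 0), ?_⟩
    intro h
    have := congrFun h ⟨0, by omega⟩
    rw [Pi.single_eq_same] at this
    exact one_ne_zero (congrArg Prod.fst this)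
  · refine ⟨_, inferInstance, inferInstance, inferInstance, D, LinearEquiv.refl _ _, ?_, hIs, ?_⟩
    · have hc := D.isExtraspecial hIs.nd ⟨Pi.single ⟨0, by omega⟩ (1, 0), by
        intro h
        have := congrFun h ⟨0, by omega⟩
        rw [Pi.single_eq_same] at this
        exact one_ne_zero (congrArg Prod.fst this)⟩
      apply Subgroup.eq_of_le_of_card_ge
      · rw [Subgroup.zpowers_le, Subgroup.mem_center_iff]
        intro g; exact (D.central g).symm
      · rw [Nat.card_zpowers, D.ord, hc.2]
    · intro v
      rw [hQ]; rfl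

end CfsgLib.ExForm
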