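import Mathlib
import Cfsg.Agent.LibHeis
import Cfsg.Prelude.Def_KGroupFacts
import Cfsg.Prelude.Def_Classical

/-! outer automorphism groups of extraspecial 2-groups -/

set_option autoImplicit false
set_option linter.all false
open scoped commutatorElement

namespace CfsgLib.ExForm

open CfsgLib.SolvFrat CfsgLib.SolvBasic CfsgLib.QuadF2

universe u v w

/-- isometry group of a function on a vector space over the field with two elements -/
def isoGrp {V : Type u} [AddCommGroup V] [Module (ZMod 2) V] (Q : V → ZMod 2) :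
    Subgroup (V ≃ₗ[ZMod 2] V) where
  carrier := {ψ | ∀ v, Q (ψ v) = Q v}
  one_mem' := fun v => rfl
  mul_mem' := by
    intro a b ha hb v
    change Q (a (b v)) = Q v
    rw [ha, hb]
  inv_mem' := by
    intro a ha v
    change Q (a.symm v) = Q v
    have := ha (a.symm v)
    rw [a.apply_symm_apply] at this
    exact this.symm

/-- transport along isometries -/
noncomputable def isoGrpCongr {V : Type u} [AddCommGroup V] [Module (ZMod 2) V]
    {V' : Type v} [AddCommGroup V'] [Module (ZMod 2) V'] {Q : V → ZMod 2} {Q' : V' → ZMod 2}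
    (ψ : V ≃ₗ[ZMod 2] V') (h : ∀ v, Q' (ψ v) = Q v) : isoGrp Q ≃* isoGrp Q' where
  toFun g := ⟨ψ.symm.trans ((g : V ≃ₗ[ZMod 2] V).trans ψ), by
    intro v
    change Q' (ψ ((g : V ≃ₗ[ZMod 2] V) (ψ.symm v))) = Q' v
    rw [h, g.2, ← h, ψ.apply_symm_apply]⟩
  invFun g := ⟨ψ.trans ((g : V' ≃ₗ[ZMod 2] V').trans ψ.symm), by
    intro v
    change Q (ψ.symm ((g : V' ≃ₗ[ZMod 2] V') (ψ v))) = Q v
    rw [← h, ψ.apply_symm_apply, g.2, h]⟩
  left_inv g := by
    apply Subtype.ext
    apply LinearEquiv.ext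
    intro v
    change ψ.symm (ψ ((g : V ≃ₗ[ZMod 2] V) (ψ.symm (ψ v)))) = _
    rw [ψ.symm_apply_apply, ψ.symm_apply_apply]
  right_inv g := by
    apply Subtype.ext
    apply LinearEquiv.ext
    intro v
    change ψ (ψ.symm ((g : V' ≃ₗ[ZMod 2] V') (ψ (ψ.symm v)))) = _
    rw [ψ.apply_symm_apply, ψ.apply_symm_apply]
  map_mul' a b := by
    apply Subtype.ext
    apply LinearEquiv.ext
    intro v
    change ψ ((a : V ≃ₗ[ZMod 2] V) ((b : V ≃ₗ[ZMod 2] V) (ψ.symm v))) =
      ψ ((a : V ≃ₗ[ZMod 2] V) (ψ.symm (ψ ((b : V ≃ₗ[ZMod 2] V) (ψ.symm v)))))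
    rw [ψ.symm_apply_apply]

/-- `GL` as linear equivalences -/
noncomputable def glLin' {ι : Type} [Fintype ι] [DecidableEq ι] :
    Matrix.GeneralLinearGroup ι (ZMod 2) ≃* ((ι → ZMod 2) ≃ₗ[ZMod 2] (ι → ZMod 2)) :=
  (Matrix.GeneralLinearGroup.toLin (n := ι) (R := ZMod 2)).trans
    (LinearMap.GeneralLinearGroup.generalLinearEquiv (ZMod 2) (ι → ZMod 2))

/-- the matrix isometry group -/
noncomputable def isoGrpMat {ι : Type} [Fintype ι] [DecidableEq ι]
    (Q : (ι → ZMod 2) → ZMod 2) : Cfsg.isometryGroup (ZMod 2) Q ≃* isoGrp Q where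
  toFun g := ⟨glLin' (g : Matrix.GeneralLinearGroup ι (ZMod 2)), fun v => g.2 v v⟩
  invFun g := ⟨glLin'.symm (g : (ι → ZMod 2) ≃ₗ[ZMod 2] (ι → ZMod 2)), by
    intro u _
    have h1 := g.2 u
    have h2 : glLin' (glLin'.symm (g : (ι → ZMod 2) ≃ₗ[ZMod 2] (ι → ZMod 2))) u =
      (g : (ι → ZMod 2) ≃ₗ[ZMod 2] (ι → ZMod 2)) u := by rw [MulEquiv.apply_symm_apply]
    rw [← h2] at h1
    exact h1⟩
  left_inv g := by
    apply Subtype.ext
    exact glLin'.symm_apply_apply _
  right_inv g := by
    apply Subtype.ext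
    exact glLin'.apply_symm_apply _
  map_mul' a b := by
    apply Subtype.ext
    exact map_mul glLin' _ _

section induced

variable {E : Type u} [Group E] [Finite E] {V : Type v} [AddCommGroup V] [Module (ZMod 2) V]
  [Finite V] (D : FormData 2 E V) (hD : Subgroup.zpowers D.z = Subgroup.center E)

include hD in
theorem map_center (α : MulAut E) {x : E} (hx : x ∈ Subgroup.zpowers D.z) :
    α x ∈ Subgroup.zpowers D.z := by
  rw [hD] at hx ⊢
  rw [Subgroup.mem_center_iff] at hx ⊢
  intro g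
  obtain ⟨y, rfl⟩ := α.surjective g
  rw [← map_mul, ← map_mul, hx y]

include hD in
theorem aut_z (α : MulAut E) : α D.z = D.z := by
  have h1 := map_center D hD α (Subgroup.mem_zpowers D.z)
  obtain ⟨a, ha⟩ := exists_pow_val D.ord h1
  have h2 : a = 0 ∨ a = 1 := by
    by_cases h : a = 0
    · exact Or.inl h
    · exact Or.inr (eq_one_of_ne h)
  rcases h2 with rfl | rfl
  · exfalso
    rw [ZMod.val_zero, pow_zero] at ha
    have h3 : D.z = 1 := α.injective (by rw [ha, map_one])
    have h4 := D.ord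
    rw [h3, orderOf_one] at h4
    norm_num at h4
  · have h5 : (1 : ZMod 2).val = 1 := by decide
    rw [ha, h5, pow_one]

/-- the induced map -/
noncomputable def indFun (α : MulAut E) (v : V) : V := D.π (α (D.surj v).choose)

include hD in
theorem indFun_π (α : MulAut E) (x : E) : indFun D α (D.π x) = D.π (α x) := by
  have h1 : D.π (D.surj (D.π x)).choose = D.π x := (D.surj (D.π x)).choose_spec
  rw [π_eq_iff] at h1
  have h2 := map_center D hD α h1
  rw [map_mul, map_inv, ← π_eq_iff] at h2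
  exact h2

include hD in
theorem indFun_add (α : MulAut E) (v w : V) : indFun D α (v + w) = indFun D α v + indFun D α w := by
  obtain ⟨x, rfl⟩ := D.surj v
  obtain ⟨y, rfl⟩ := D.surj w
  rw [← D.mul, indFun_π D hD, indFun_π D hD, indFun_π D hD, map_mul, D.mul]

/-- the induced linear map -/
noncomputable def indLin (α : MulAut E) : V ≃ₗ[ZMod 2] V :=
  { toFun := indFun D α
    map_add' := indFun_add D hD α
    map_smul' := fun c v =>
      ZMod.map_smul (AddMonoidHom.mk' (indFun D α) (indFun_add D hD α)) c v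
    invFun := indFun D α⁻¹
    left_inv := by
      intro v
      obtain ⟨x, rfl⟩ := D.surj v
      rw [indFun_π D hD, indFun_π D hD]
      congr 1
      exact α.symm_apply_apply x
    right_inv := by
      intro v
      obtain ⟨x, rfl⟩ := D.surj v
      rw [indFun_π D hD, indFun_π D hD]
      congr 1
      exact α.apply_symm_apply x }

theorem indLin_π (α : MulAut E) (x : E) : indLin D hD α (D.π x) = D.π (α x) := indFun_π D hD α x

theorem indLin_mem (α : MulAut E) : indLin D hD α ∈ isoGrp D.Q := by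
  intro v
  obtain ⟨x, rfl⟩ := D.surj v
  rw [indLin_π]
  apply pow_val_inj D.ord
  rw [← D.pow, ← map_pow, D.pow, map_pow, aut_z D hD]

/-- the homomorphism to the isometry group -/
noncomputable def autHom : MulAut E →* isoGrp D.Q :=
  MonoidHom.mk' (fun α => ⟨indLin D hD α, indLin_mem D hD α⟩) (by
    intro α β
    apply Subtype.ext
    apply LinearEquiv.ext
    intro v
    obtain ⟨x, rfl⟩ := D.surj v
    change indLin D hD (α * β) (D.π x) = indLin D hD α (indLin D hD β (D.π x))
    rw [indLin_π, indLin_π, indLin_π]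
    rfl)

theorem autHom_π (α : MulAut E) (x : E) :
    ((autHom D hD α : isoGrp D.Q) : V ≃ₗ[ZMod 2] V) (D.π x) = D.π (α x) := indLin_π D hD α x

theorem autHom_surjective (hQ : IsQ D.B D.Q) : Function.Surjective (autHom D hD) := by
  rintro ⟨ψ, hψ⟩
  obtain ⟨e, he, -⟩ := D.exists_equiv D ψ (by
    intro v w
    have h1 := hQ.add v w
    have h2 := hQ.add (ψ v) (ψ w)
    rw [← map_add, hψ, hψ, hψ, h1] at h2
    exact (add_left_cancel h2).symm) hψ
  refine ⟨e, ?_⟩
  apply Subtype.ext
  apply LinearEquiv.ext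
  intro v
  obtain ⟨x, rfl⟩ := D.surj v
  change ((autHom D hD e : isoGrp D.Q) : V ≃ₗ[ZMod 2] V) (D.π x) = ψ (D.π x)
  rw [autHom_π, he]

theorem autHom_ker (hE : Cfsg.IsExtraspecial 2 E) : (autHom D hD).ker = (MulAut.conj : E →* MulAut E).range := by
  ext α
  rw [MonoidHom.mem_ker]
  constructor
  · intro h
    have h1 : ∀ x, α x * x⁻¹ ∈ Subgroup.center E := by
      intro x
      have h2 := autHom_π D hD α x
      rw [h] at h2
      change D.π x = D.π (α x) at h2
      rw [π_eq_iff, hD] at h2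
      have h3 := (inferInstance : (Subgroup.center E).Normal).conj_mem _ h2 x
      have e : x * (x⁻¹ * α x) * x⁻¹ = α x * x⁻¹ := by group
      rwa [e] at h3
    obtain ⟨g, hg⟩ := CfsgLib.ExtraH28.inner_of_trivial_mod_center hE α.toMonoidHom h1
    refine ⟨g, ?_⟩
    ext x
    exact (hg x).symm
  · rintro ⟨g, rfl⟩
    apply Subtype.ext
    apply LinearEquiv.ext
    intro v
    obtain ⟨x, rfl⟩ := D.surj v
    rw [autHom_π]
    change D.π (g * x * g⁻¹) = D.π x
    rw [D.mul, D.mul, D.inv]
    abel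

include hD in
/-- `Out(E)` is the isometry group -/
theorem out_equiv (hE : Cfsg.IsExtraspecial 2 E) (hQ : IsQ D.B D.Q) :
    Nonempty (Cfsg.Out E ≃* isoGrp D.Q) := by
  have h1 := QuotientGroup.quotientKerEquivOfSurjective (autHom D hD) (autHom_surjective D hD hQ)
  exact ⟨(QuotientGroup.quotientMulEquivOfEq (autHom_ker D hD hE).symm).trans h1⟩

end induced

/-- coordinates for the plus form -/
def plusEquiv (m : ℕ) : (Fin m → ZMod 2 × ZMod 2) ≃ₗ[ZMod 2] (Fin m ⊕ Fin m → ZMod 2) where
  toFun w := Sum.elim (fun i => (w i).1) (fun i => (w i).2)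
  invFun u := fun i => (u (Sum.inl i), u (Sum.inr i))
  map_add' a b := by
    funext i
    rcases i with i | i <;> rfl
  map_smul' a b := by
    funext i
    rcases i with i | i <;> rfl
  left_inv w := rfl
  right_inv u := by
    funext i
    rcases i with i | i <;> rfl

theorem plusEquiv_form (m : ℕ) (w : Fin m → ZMod 2 × ZMod 2) :
    Cfsg.quadFormPlus m (ZMod 2) (plusEquiv m w) = nf m 0 w := by
  unfold Cfsg.quadFormPlus nf
  apply Finset.sum_congr rfl
  intro i _
  rw [zero_mul, add_zero]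
  rfl

/-- coordinates for the minus form -/
def minusEquiv (m : ℕ) : (Fin (m + 1) → ZMod 2 × ZMod 2) ≃ₗ[ZMod 2]
    ((Fin m ⊕ Fin m) ⊕ Fin 2 → ZMod 2) where
  toFun w := Sum.elim (Sum.elim (fun i => (w i.castSucc).1) (fun i => (w i.castSucc).2))
    ![(w (Fin.last m)).1, (w (Fin.last m)).2]
  invFun u := Fin.snoc (fun i : Fin m => (u (Sum.inl (Sum.inl i)), u (Sum.inl (Sum.inr i))))
    (u (Sum.inr 0), u (Sum.inr 1))
  map_add' a b := by
    funext i
    rcases i with (i | i) | i
    · rfl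
    · rfl
    · fin_cases i <;> rfl
  map_smul' a b := by
    funext i
    rcases i with (i | i) | i
    · rfl
    · rfl
    · fin_cases i <;> rfl
  left_inv w := by
    funext i
    refine Fin.lastCases ?_ (fun j => ?_) i
    · simp only [Fin.snoc_last]; rfl
    · simp only [Fin.snoc_castSucc]; rfl
  right_inv u := by
    funext i
    rcases i with (i | i) | i
    · simp only [Sum.elim_inl, Fin.snoc_castSucc]
    · simp only [Sum.elim_inl, Sum.elim_inr, Fin.snoc_castSucc]
    · fin_cases i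
      · simp [Fin.snoc_last]
      · simp [Fin.snoc_last]

theorem minusEquiv_form (m : ℕ) (w : Fin (m + 1) → ZMod 2 × ZMod 2) :
    Cfsg.quadFormMinus m (ZMod 2) 1 1 (minusEquiv m w) = nf (m + 1) 1 w := by
  unfold Cfsg.quadFormMinus nf
  rw [Fin.sum_univ_castSucc]
  congr 1
  · apply Finset.sum_congr rfl
    intro i _
    have h : ¬ ((Fin.castSucc i).val + 1 = m + 1) := by
      rw [Fin.val_castSucc]; omega
    rw [if_neg h, mul_zero, add_zero]
    rfl
  · rw [if_pos (by rw [Fin.val_last])]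
    change (w (Fin.last m)).1 ^ 2 + 1 * (w (Fin.last m)).1 * (w (Fin.last m)).2 +
      1 * (w (Fin.last m)).2 ^ 2 = _
    generalize (w (Fin.last m)).1 = a
    generalize (w (Fin.last m)).2 = b
    revert a b; decide

theorem out_of_type {E : Type u} [Group E] [Finite E] (hE : Cfsg.IsExtraspecial 2 E) {m : ℕ}
    {t : ZMod 2} (h : HasType E m t) : Nonempty (Cfsg.Out E ≃* isoGrp (nf m t)) := by
  obtain ⟨V, _, _, _, D, φ, hD, hQ, hφ⟩ := h
  obtain ⟨e⟩ := out_equiv D hD hE hQ
  exact ⟨e.trans (isoGrpCongr φ (fun v => (hφ v).symm))⟩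

end CfsgLib.ExForm
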