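import Mathlib
import Cfsg.Agent.LibExOut

/-! the minus type quadratic form in dimension 4 over the field with two elements -/

set_option autoImplicit false
set_option linter.all false

namespace CfsgLib.ExForm

open CfsgLib.QuadF2

abbrev V4 := Fin 2 → ZMod 2 × ZMod 2

/-- the five singular vectors -/
def ev : Fin 5 → V4 := ![![(1, 0), (0, 0)], ![(0, 1), (0, 0)], ![(1, 1), (1, 0)], ![(1, 1), (0, 1)],
  ![(1, 1), (1, 1)]]

/-- explicit form of `nf 2 1` -/
theorem nf_two (w : V4) : nf 2 1 w = (w 0).1 * (w 0).2 + ((w 1).1 * (w 1).2 + ((w 1).1 + (w 1).2)) := by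
  unfold nf
  rw [Fin.sum_univ_two]
  simp

theorem ev_sing (i : Fin 5) : nf 2 1 (ev i) = 0 := by
  rw [nf_two]; revert i; decide

theorem ev_pair (i j : Fin 5) (h : i ≠ j) : nf 2 1 (ev i + ev j) = 1 := by
  rw [nf_two]; revert i j; decide

theorem ev_ne (i : Fin 5) : ev i ≠ 0 := by
  revert i; decide

theorem ev_inj : Function.Injective ev := by
  intro i j; revert i j; decide

theorem ev_sum : ev 0 + ev 1 + ev 2 + ev 3 + ev 4 = 0 := by decide

theorem exists_ev (v : V4) (h0 : v ≠ 0) (h : nf 2 1 v = 0) : ∃ i, v = ev i := by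
  rw [nf_two] at h
  obtain ⟨x, hx⟩ : ∃ x, x = v 0 := ⟨_, rfl⟩
  obtain ⟨y, hy⟩ : ∃ y, y = v 1 := ⟨_, rfl⟩
  have hv : v = ![x, y] := by
    funext i
    fin_cases i
    · exact hx.symm
    · exact hy.symm
  subst hv
  clear hx hy
  revert h h0
  revert x y
  decide

/-- the linear map attached to a family -/
def Lf (f : Fin 5 → V4) : V4 →ₗ[ZMod 2] V4 where
  toFun v := ((v 0).1 + (v 1).1 + (v 1).2) • f 0 + ((v 0).2 + (v 1).1 + (v 1).2) • f 1 +
    (v 1).1 • f 2 + (v 1).2 • f 3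
  map_add' a b := by
    simp only [Pi.add_apply, Prod.fst_add, Prod.snd_add, add_smul]
    abel
  map_smul' c a := by
    simp only [Pi.smul_apply, Prod.smul_fst, Prod.smul_snd, smul_eq_mul, RingHom.id_apply,
      smul_add, add_smul, mul_smul]

theorem Lf_apply (f : Fin 5 → V4) (v : V4) : Lf f v =
    ((v 0).1 + (v 1).1 + (v 1).2) • f 0 + ((v 0).2 + (v 1).1 + (v 1).2) • f 1 +
    (v 1).1 • f 2 + (v 1).2 • f 3 := rfl

theorem Lf_ev_self (v : V4) : Lf ev v = v := by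
  obtain ⟨x, hx⟩ : ∃ x, x = v 0 := ⟨_, rfl⟩
  obtain ⟨y, hy⟩ : ∃ y, y = v 1 := ⟨_, rfl⟩
  have hv : v = ![x, y] := by
    funext i
    fin_cases i
    · exact hx.symm
    · exact hy.symm
  subst hv
  clear hx hy
  rw [Lf_apply]
  revert x y
  decide

theorem lin_ext (g : V4 →ₗ[ZMod 2] V4) : g = Lf (fun i => g (ev i)) := by
  apply LinearMap.ext
  intro v
  conv_lhs => rw [← Lf_ev_self v]
  rw [Lf_apply, Lf_apply, map_add, map_add, map_add, map_smul, map_smul, map_smul, map_smul]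

theorem Lf_ev (f : Fin 5 → V4) (hf : f 0 + f 1 + f 2 + f 3 + f 4 = 0) (i : Fin 5) :
    Lf f (ev i) = f i := by
  have h2 : (1 : ZMod 2) + 1 = 0 := by decide
  rw [Lf_apply]
  fin_cases i
  · change ((1 : ZMod 2) + 0 + 0) • f 0 + ((0 : ZMod 2) + 0 + 0) • f 1 + (0 : ZMod 2) • f 2 +
      (0 : ZMod 2) • f 3 = f 0
    simp
  · change ((0 : ZMod 2) + 0 + 0) • f 0 + ((1 : ZMod 2) + 0 + 0) • f 1 + (0 : ZMod 2) • f 2 +
      (0 : ZMod 2) • f 3 = f 1
    simp
  · change ((1 : ZMod 2) + 1 + 0) • f 0 + ((1 : ZMod 2) + 1 + 0) • f 1 + (1 : ZMod 2) • f 2 +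
      (0 : ZMod 2) • f 3 = f 2
    simp [h2]
  · change ((1 : ZMod 2) + 0 + 1) • f 0 + ((1 : ZMod 2) + 0 + 1) • f 1 + (0 : ZMod 2) • f 2 +
      (1 : ZMod 2) • f 3 = f 3
    simp [h2]
  · change ((1 : ZMod 2) + 1 + 1) • f 0 + ((1 : ZMod 2) + 1 + 1) • f 1 + (1 : ZMod 2) • f 2 +
      (1 : ZMod 2) • f 3 = f 4
    rw [h2, zero_add, one_smul, one_smul, one_smul, one_smul]
    have h3 : ∀ x : V4, x + x = 0 := by
      intro x
      have : x + x = (2 : ZMod 2) • x := by rw [two_smul]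
      rw [this, show (2 : ZMod 2) = 0 from rfl, zero_smul]
    calc f 0 + f 1 + f 2 + f 3 = (f 0 + f 1 + f 2 + f 3 + f 4) + f 4 - (f 4 + f 4) + f 4 - f 4 + f 4 - f 4 := by abel
      _ = f 4 := by rw [hf, h3]; abel

/-- permuted family -/
def evp (σ : Equiv.Perm (Fin 5)) (i : Fin 5) : V4 := ev (σ i)

theorem evp_apply (σ : Equiv.Perm (Fin 5)) (i : Fin 5) : evp σ i = ev (σ i) := rfl

theorem sum_perm (σ : Equiv.Perm (Fin 5)) :
    evp σ 0 + evp σ 1 + evp σ 2 + evp σ 3 + evp σ 4 = 0 := by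
  simp only [evp_apply]
  have h1 : ∑ i, ev (σ i) = ∑ i, ev i := Equiv.sum_comp σ ev
  rw [Fin.sum_univ_five, Fin.sum_univ_five, ev_sum] at h1
  exact h1

/-- value of the form in terms of coordinates -/
theorem nf_comb (f : Fin 5 → V4) (h1 : ∀ i, nf 2 1 (f i) = 0)
    (h2 : ∀ i j, i ≠ j → nf 2 1 (f i + f j) = 1) (a b c d : ZMod 2) :
    nf 2 1 (a • f 0 + b • f 1 + c • f 2 + d • f 3) =
      a * b + (a + b) * c + (a + b + c) * d := by
  have hQ := isQ_nf 2 1
  obtain ⟨B, hB⟩ : ∃ B, B = βnf 2 1 - (βnf 2 1).flip := ⟨_, rfl⟩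
  rw [← hB] at hQ
  have hBf : ∀ i j, i ≠ j → B (f i) (f j) = 1 := by
    intro i j hij
    have := hQ.add (f i) (f j)
    rw [h1, h1, h2 i j hij, zero_add, zero_add] at this
    exact this.symm
  rw [hQ.add, hQ.add, hQ.add, hQ.smul, hQ.smul, hQ.smul, hQ.smul, h1, h1, h1, h1]
  simp only [map_add, map_smul, LinearMap.add_apply, LinearMap.smul_apply, smul_eq_mul]
  rw [hBf 0 1 (by decide), hBf 0 2 (by decide), hBf 0 3 (by decide), hBf 1 2 (by decide),
    hBf 1 3 (by decide), hBf 2 3 (by decide)]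
  ring

theorem Lf_comp (σ τ : Equiv.Perm (Fin 5)) (h : σ * τ = 1) :
    (Lf (evp σ)) ∘ₗ (Lf (evp τ)) = LinearMap.id := by
  rw [lin_ext ((Lf (evp σ)) ∘ₗ (Lf (evp τ))), lin_ext LinearMap.id]
  have h1 : (fun i => ((Lf (evp σ)) ∘ₗ (Lf (evp τ))) (ev i)) =
      fun i => (LinearMap.id : V4 →ₗ[ZMod 2] V4) (ev i) := by
    funext i
    rw [LinearMap.comp_apply, Lf_ev (evp τ) (sum_perm τ), evp_apply,
      Lf_ev (evp σ) (sum_perm σ), LinearMap.id_apply, evp_apply]
    have h2 : σ (τ i) = (σ * τ) i := rfl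
    rw [h2, h]; rfl
  rw [h1]

/-- permutations act by isometries -/
noncomputable def permLin (σ : Equiv.Perm (Fin 5)) : V4 ≃ₗ[ZMod 2] V4 :=
  LinearEquiv.ofLinear (Lf (evp σ)) (Lf (evp σ⁻¹)) (Lf_comp σ σ⁻¹ (mul_inv_cancel σ))
    (Lf_comp σ⁻¹ σ (inv_mul_cancel σ))

theorem permLin_ev (σ : Equiv.Perm (Fin 5)) (i : Fin 5) : permLin σ (ev i) = ev (σ i) :=
  Lf_ev (evp σ) (sum_perm σ) i

theorem permLin_mem (σ : Equiv.Perm (Fin 5)) : permLin σ ∈ isoGrp (nf 2 1) := by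
  intro v
  change nf 2 1 (Lf (evp σ) v) = nf 2 1 v
  have h1 : nf 2 1 v = nf 2 1 (Lf ev v) := by rw [Lf_ev_self]
  rw [h1, Lf_apply, Lf_apply]
  have h2 := nf_comb (evp σ) (fun i => ev_sing (σ i))
    (fun i j hij => ev_pair (σ i) (σ j) (fun h => hij (σ.injective h)))
  have h3 := nf_comb ev ev_sing ev_pair
  rw [h2, h3]

theorem equiv_ext {g h : V4 ≃ₗ[ZMod 2] V4} (H : ∀ i, g (ev i) = h (ev i)) : g = h := by
  have h1 : g.toLinearMap = h.toLinearMap := by
    rw [lin_ext g.toLinearMap, lin_ext h.toLinearMap]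
    congr 1
    funext i
    exact H i
  apply LinearEquiv.ext
  intro v
  exact congrArg (fun L : V4 →ₗ[ZMod 2] V4 => L v) h1

noncomputable def permHom : Equiv.Perm (Fin 5) →* isoGrp (nf 2 1) :=
  MonoidHom.mk' (fun σ => ⟨permLin σ, permLin_mem σ⟩) (by
    intro σ τ
    apply Subtype.ext
    apply equiv_ext
    intro i
    change permLin (σ * τ) (ev i) = permLin σ (permLin τ (ev i))
    rw [permLin_ev, permLin_ev, permLin_ev]
    rfl)

theorem permHom_bijective : Function.Bijective permHom := by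
  constructor
  · intro σ τ h
    apply Equiv.ext
    intro i
    apply ev_inj
    rw [← permLin_ev, ← permLin_ev]
    exact congrArg (fun g : isoGrp (nf 2 1) => (g : V4 ≃ₗ[ZMod 2] V4) (ev i)) h
  · rintro ⟨g, hg⟩
    have h1 : ∀ i, ∃ j, g (ev i) = ev j := by
      intro i
      apply exists_ev
      · intro h0
        exact ev_ne i (g.map_eq_zero_iff.mp h0)
      · rw [hg, ev_sing]
    choose f hf using h1
    have hfi : Function.Injective f := by
      intro i j hij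
      apply ev_inj
      apply g.injective
      rw [hf, hf, hij]
    have hfb : Function.Bijective f := Finite.injective_iff_bijective.mp hfi
    refine ⟨Equiv.ofBijective f hfb, ?_⟩
    apply Subtype.ext
    apply equiv_ext
    intro i
    change permLin _ (ev i) = g (ev i)
    rw [permLin_ev, hf]
    rfl

noncomputable def isoS5 : Equiv.Perm (Fin 5) ≃* isoGrp (nf 2 1) :=
  MulEquiv.ofBijective permHom permHom_bijective

end CfsgLib.ExForm
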