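import Cfsg.Agent.EqBase
import Mathlib

set_option autoImplicit false
set_option maxHeartbeats 400000

/-! Overgroups of SL over an extension field: quadratic elements and the key geometric step. -/

namespace CfsgLib.Ext19
open Module

section Calc
variable {F V : Type*} [Field F] [AddCommGroup V] [Module F V]

/-- `1 + τ` belongs to `X`. -/
def P (X : Subgroup (V ≃ₗ[F] V)) (τ : V →ₗ[F] V) : Prop := ∃ g ∈ X, ∀ w, g w = w + τ w

variable {X : Subgroup (V ≃ₗ[F] V)} {τ σ ρ : V →ₗ[F] V}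

theorem P.zero : P X (0 : V →ₗ[F] V) := ⟨1, X.one_mem, fun w => by simp⟩

theorem P.mul (h1 : P X τ) (h2 : P X σ) : P X (τ + σ + τ ∘ₗ σ) := by
  obtain ⟨g, hg, hg'⟩ := h1
  obtain ⟨h, hh, hh'⟩ := h2
  refine ⟨g * h, X.mul_mem hg hh, fun w => ?_⟩
  rw [LinearEquiv.mul_apply, hh', hg']
  simp only [map_add, LinearMap.add_apply, LinearMap.comp_apply]
  abel

theorem P.add (h1 : P X τ) (h2 : P X σ) (h : ∀ w, τ (σ w) = 0) : P X (τ + σ) := by
  have h3 := P.mul h1 h2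
  have h4 : τ ∘ₗ σ = 0 := by ext w; exact h w
  rwa [h4, add_zero] at h3

theorem P.neg (h1 : P X τ) (h : ∀ w, τ (τ w) = 0) : P X (-τ) := by
  obtain ⟨g, hg, hg'⟩ := h1
  refine ⟨g⁻¹, X.inv_mem hg, fun w => ?_⟩
  apply g.injective
  have h5 : g (g⁻¹ w) = w := by
    rw [← LinearEquiv.mul_apply, mul_inv_cancel]; rfl
  rw [h5, hg']
  simp [h]

theorem P.conj (h1 : P X τ) {y : V ≃ₗ[F] V} (hy : y ∈ X) :
    P X ((y : V →ₗ[F] V) ∘ₗ τ ∘ₗ ((y⁻¹ : V ≃ₗ[F] V) : V →ₗ[F] V)) := by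
  obtain ⟨g, hg, hg'⟩ := h1
  refine ⟨y * g * y⁻¹, X.mul_mem (X.mul_mem hy hg) (X.inv_mem hy), fun w => ?_⟩
  rw [LinearEquiv.mul_apply, LinearEquiv.mul_apply, hg', map_add]
  have h5 : y (y⁻¹ w) = w := by
    rw [← LinearEquiv.mul_apply, mul_inv_cancel]; rfl
  rw [h5]; rfl

theorem P.congr (h1 : P X τ) (h : ∀ w, τ w = σ w) : P X σ := by
  have : τ = σ := by ext w; exact h w
  rwa [← this]

/-- commutator of two quadratic elements with `ρ σ = 0` -/
theorem P.comm (h1 : P X σ) (h2 : P X ρ) (hss : ∀ w, σ (σ w) = 0) (hrr : ∀ w, ρ (ρ w) = 0)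
    (hrs : ∀ w, ρ (σ w) = 0) : P X (σ ∘ₗ ρ) := by
  have h3 := (h1.mul h2).mul ((h1.neg hss).mul (h2.neg hrr))
  refine h3.congr fun w => ?_
  simp only [LinearMap.add_apply, LinearMap.comp_apply, LinearMap.neg_apply, map_add, map_neg, hss, hrr, hrs,
    map_zero, neg_zero, neg_neg, add_zero, zero_add]
  abel

end Calc

section Lines
variable {F K V : Type*} [Field F] [Field K] [Algebra F K] [AddCommGroup V] [Module F V] [Module K V]
  [IsScalarTower F K V]

/-- `w ↦ η (Ψ w) • a` -/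
def et (η : K →ₗ[F] K) (Ψ : V →ₗ[K] K) (a : V) : V →ₗ[F] V where
  toFun w := η (Ψ w) • a
  map_add' x y := by rw [map_add, map_add, add_smul]
  map_smul' c x := by
    rw [RingHom.id_apply, ← smul_assoc, ← map_smul, ← algebraMap_smul K c x, map_smul, algebraMap_smul]

@[simp] theorem et_apply (η : K →ₗ[F] K) (Ψ : V →ₗ[K] K) (a w : V) : et η Ψ a w = η (Ψ w) • a := rfl

/-- the `K`-line through `a`, as an `F`-subspace -/
def Kl (F : Type*) (K : Type*) {V : Type*} [Field F] [Field K] [Algebra F K] [AddCommGroup V] [Module F V] [Module K V]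
  [IsScalarTower F K V] (a : V) : Submodule F V := (Submodule.span K {a}).restrictScalars F

theorem mem_Kl {a w : V} : w ∈ Kl F K a ↔ ∃ z : K, z • a = w := by
  rw [Kl, Submodule.restrictScalars_mem, Submodule.mem_span_singleton]

theorem self_mem_Kl (a : V) : a ∈ Kl F K a := mem_Kl.2 ⟨1, one_smul _ _⟩

theorem smul_mem_Kl {a w : V} (z : K) (h : w ∈ Kl F K a) : z • w ∈ Kl F K a := by
  obtain ⟨t, rfl⟩ := mem_Kl.1 h
  exact mem_Kl.2 ⟨z * t, by rw [mul_smul]⟩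

theorem finrank_Kl {a : V} (ha : a ≠ 0) : finrank F (Kl F K a) = finrank F K := by
  let e : K ≃ₗ[K] (Submodule.span K {a}) := LinearEquiv.toSpanNonzeroSingleton K V a ha
  let e' : K ≃ₗ[F] (Kl F K a) := e.restrictScalars F
  exact e'.finrank_eq.symm

theorem Kl_eq_of_mem {a b : V} (hb : b ≠ 0) (h : b ∈ Kl F K a) : Kl F K a = Kl F K b := by
  obtain ⟨z, rfl⟩ := mem_Kl.1 h
  have hz : z ≠ 0 := by rintro rfl; exact hb (zero_smul _ _)
  ext w
  rw [mem_Kl, mem_Kl]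
  constructor
  · rintro ⟨t, rfl⟩
    exact ⟨t * z⁻¹, by rw [smul_smul, mul_assoc, inv_mul_cancel₀ hz, mul_one]⟩
  · rintro ⟨t, rfl⟩
    exact ⟨t * z, by rw [mul_smul]⟩

/-- separation of a vector from a `K`-subspace -/
theorem exists_dual (W : Submodule K V) {v : V} (hv : v ∉ W) :
    ∃ Ψ : V →ₗ[K] K, Ψ v = 1 ∧ ∀ w ∈ W, Ψ w = 0 := by
  obtain ⟨f, hf, hW⟩ := Submodule.exists_le_ker_of_notMem hv
  refine ⟨(f v)⁻¹ • f, by simp [hf], fun w hw => ?_⟩
  have : f w = 0 := hW hw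
  simp [this]

theorem exists_dual_line {a b : V} (hb : b ∉ Kl F K a) : ∃ Ψ : V →ₗ[K] K, Ψ b = 1 ∧ Ψ a = 0 := by
  obtain ⟨Ψ, h1, h2⟩ := exists_dual (Submodule.span K {a}) (v := b) hb
  exact ⟨Ψ, h1, h2 a (Submodule.mem_span_singleton_self a)⟩

theorem dual_Kl {a w : V} {Ψ : V →ₗ[K] K} (h : Ψ a = 0) (hw : w ∈ Kl F K a) : Ψ w = 0 := by
  obtain ⟨z, rfl⟩ := mem_Kl.1 hw
  rw [map_smul, h, smul_zero]

variable [FiniteDimensional F K]

/-- a subalgebra of an extension of prime degree containing an element outside `F` is everything -/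
theorem prime_field (hr : (finrank F K).Prime) (B : Subalgebra F K) {ρ : K} (hρ : ρ ∈ B)
    (hn : ∀ f : F, algebraMap F K f ≠ ρ) : B = ⊤ := by
  haveI := Subalgebra.isSimpleOrder_of_finrank_prime F K hr
  rcases eq_bot_or_eq_top B with h | h
  · exfalso
    rw [h] at hρ
    obtain ⟨f, hf⟩ := Algebra.mem_bot.1 hρ
    exact hn f hf
  · exact h

theorem exists_not_mem (hr : (finrank F K).Prime) : ∃ θ : K, ∀ f : F, algebraMap F K f ≠ θ := by
  by_contra hcon
  push Not at hcon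
  have h1 : finrank F K = 1 := by
    rw [finrank_eq_one_iff']
    refine ⟨1, one_ne_zero, fun w => ?_⟩
    obtain ⟨f, hf⟩ := hcon w
    exact ⟨f, by rw [← hf, Algebra.algebraMap_eq_smul_one]⟩
  rw [h1] at hr
  exact Nat.not_prime_one hr

variable [FiniteDimensional F V]

/-- the geometric step: two members of the orbit of `K`-lines meeting in a hyperplane -/
theorem step2 (hr : (finrank F K).Prime) {X : Subgroup (V ≃ₗ[F] V)}
    (H1 : ∀ (Ψ : V →ₗ[K] K) (a : V), Ψ a = 0 → P X (et LinearMap.id Ψ a))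
    {x : V ≃ₗ[F] V} (hx : x ∈ X) {a0 : V} (z0 : K) (hx0 : x (z0 • a0) ∉ Kl F K (x a0)) :
    ∃ y ∈ X, ∃ a a' b l : V, a ≠ 0 ∧ a' ≠ 0 ∧ l ≠ 0 ∧ b ∈ (Kl F K a').map (y : V →ₗ[F] V) ∧ b ∉ Kl F K a ∧
      l ∈ Kl F K a ∧ l ∈ (Kl F K a').map (y : V →ₗ[F] V) ∧
      ∀ w' ∈ (Kl F K a').map (y : V →ₗ[F] V), ∃ f : F, w' - f • b ∈ Kl F K a := by
  classical
  let S : Set ℕ := {d | ∃ y ∈ X, ∃ a a' : V, a ≠ 0 ∧ a' ≠ 0 ∧ Kl F K a ≠ (Kl F K a').map (y : V →ₗ[F] V) ∧
    finrank F ↥(Kl F K a ⊓ (Kl F K a').map (y : V →ₗ[F] V)) = d ∧ 1 ≤ d}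
  have hmapfr : ∀ (y : V ≃ₗ[F] V) (W : Submodule F V), finrank F (W.map (y : V →ₗ[F] V)) = finrank F W := by
    intro y W
    exact LinearEquiv.finrank_map_eq y W
  have hbdd : BddAbove S := by
    refine ⟨finrank F K, ?_⟩
    rintro d ⟨y, hy, a, a', ha, ha', hne, hd, h1⟩
    rw [← hd, ← finrank_Kl (F := F) (K := K) ha]
    exact Submodule.finrank_mono inf_le_left
  have ha0 : a0 ≠ 0 := by
    rintro rfl
    apply hx0
    rw [smul_zero, map_zero]; exact self_mem_Kl _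
  have hne : S.Nonempty := by
    refine ⟨_, x, hx, x a0, a0, fun h => ha0 (by simpa using h), ha0, ?_, rfl, ?_⟩
    · intro h
      apply hx0
      rw [h]
      exact Submodule.mem_map.2 ⟨z0 • a0, smul_mem_Kl _ (self_mem_Kl _), rfl⟩
    · rw [Nat.one_le_iff_ne_zero, Ne, Submodule.finrank_eq_zero]
      intro h
      have : x a0 ∈ (Kl F K (x a0) ⊓ (Kl F K a0).map (x : V →ₗ[F] V)) :=
        ⟨self_mem_Kl _, Submodule.mem_map.2 ⟨a0, self_mem_Kl _, rfl⟩⟩
      rw [h, Submodule.mem_bot] at this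
      exact ha0 (by simpa using this)
  obtain ⟨y, hy, a, a', ha, ha', hMne, hd, hd1⟩ := Nat.sSup_mem hne hbdd
  have hmax : ∀ d ∈ S, d ≤ sSup S := fun d hd => le_csSup hbdd hd
  set d := sSup S with hdS
  set M := Kl F K a with hM
  set M' := (Kl F K a').map (y : V →ₗ[F] V) with hM'
  have hfM : finrank F M = finrank F K := finrank_Kl ha
  have hfM' : finrank F M' = finrank F K := by rw [hM', hmapfr, finrank_Kl ha']
  have hnot : ¬ M ≤ M' := fun h => hMne (Submodule.eq_of_le_of_finrank_eq h (by rw [hfM, hfM']))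
  have hnot' : ¬ M' ≤ M := fun h => hMne (Submodule.eq_of_le_of_finrank_eq h (by rw [hfM, hfM'])).symm
  obtain ⟨b, hbM', hbM⟩ := SetLike.not_le_iff_exists.1 hnot'
  obtain ⟨l, hl, hl0⟩ : ∃ l ∈ M ⊓ M', l ≠ 0 := by
    apply Submodule.exists_mem_ne_zero_of_ne_bot
    intro h
    rw [h, finrank_bot] at hd
    omega
  have key : ∀ Ψ : V →ₗ[K] K, Ψ a = 0 → Ψ b = 1 → ∀ w' ∈ M', ∀ l ∈ M ⊓ M', Ψ w' • l ∈ M ⊓ M' := by
    intro Ψ hΨa hΨb w' hw' l hl
    obtain ⟨g, hg, hg'⟩ := H1 Ψ l (dual_Kl hΨa hl.1)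
    let τ : V →ₗ[F] V := et LinearMap.id Ψ l
    let B0 : Submodule F V := M' ⊓ (M ⊓ M').comap τ
    have hτA : ∀ w ∈ M ⊓ M', τ w = 0 := by
      intro w hw
      change LinearMap.id (Ψ w) • l = 0
      rw [dual_Kl hΨa hw.1]; simp
    have hB1 : M ⊓ M' ≤ B0 := by
      intro w hw
      exact ⟨hw.2, by rw [SetLike.mem_coe, Submodule.mem_comap, hτA w hw]; exact Submodule.zero_mem _⟩
    have hbB : b ∈ B0 := by
      refine ⟨hbM', ?_⟩
      rw [SetLike.mem_coe, Submodule.mem_comap]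
      change LinearMap.id (Ψ b) • l ∈ _
      rw [hΨb]; simpa using hl
    have hlt : M ⊓ M' < B0 := lt_of_le_of_ne hB1 (fun h => hbM (by
      have : b ∈ M ⊓ M' := by rw [h]; exact hbB
      exact this.1))
    have hfB : d < finrank F B0 := by
      rw [← hd]; exact Submodule.finrank_lt_finrank_of_lt hlt
    have hgB : B0.map (g : V →ₗ[F] V) ≤ M' ⊓ M'.map (g : V →ₗ[F] V) := by
      rintro _ ⟨w, hw, rfl⟩
      refine ⟨?_, Submodule.mem_map.2 ⟨w, hw.1, rfl⟩⟩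
      change g w ∈ M'
      rw [hg']
      exact Submodule.add_mem _ hw.1 (Submodule.mem_comap.1 hw.2).2
    have hcomp : (y : V →ₗ[F] V) ∘ₗ ((y⁻¹ * g * y : V ≃ₗ[F] V) : V →ₗ[F] V) = (g : V →ₗ[F] V) ∘ₗ (y : V →ₗ[F] V) := by
      apply LinearMap.ext
      intro w
      change y ((y⁻¹ * g * y) w) = g (y w)
      rw [← LinearEquiv.mul_apply, ← mul_assoc, ← mul_assoc, mul_inv_cancel, one_mul]; rfl
    have hMg : M' = M'.map (g : V →ₗ[F] V) := by
      by_contra hcon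
      have hmem : finrank F ↥(M' ⊓ M'.map (g : V →ₗ[F] V)) ∈ S := by
        refine ⟨y⁻¹ * g * y, X.mul_mem (X.mul_mem (X.inv_mem hy) hg) hy, a', a', ha', ha', ?_, ?_, ?_⟩
        · intro h
          apply hcon
          rw [hM']
          conv_lhs => rw [h]
          rw [← Submodule.map_comp, ← Submodule.map_comp, hcomp]
        · rw [← hmapfr y (Kl F K a' ⊓ _), Submodule.map_inf _ y.injective, ← Submodule.map_comp, hM', ← Submodule.map_comp]
          rw [hcomp]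
        · have h1 := Submodule.finrank_mono hgB
          rw [hmapfr] at h1
          omega
      have h1 := hmax _ hmem
      have h2 := Submodule.finrank_mono hgB
      rw [hmapfr] at h2
      omega
    have h3 : g w' ∈ M' := by
      rw [hMg]; exact Submodule.mem_map.2 ⟨w', hw', rfl⟩
    rw [hg'] at h3
    have h4 : τ w' ∈ M' := by
      have := Submodule.sub_mem _ h3 hw'
      rwa [add_sub_cancel_left] at this
    refine ⟨smul_mem_Kl _ hl.1, ?_⟩
    simpa [τ] using h4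
  let B : Subalgebra F K :=
    { carrier := {z | ∀ l ∈ M ⊓ M', z • l ∈ M ⊓ M'}
      mul_mem' := by
        intro z t hz ht l hl
        rw [mul_smul]; exact hz _ (ht _ hl)
      one_mem' := by intro l hl; rwa [one_smul]
      add_mem' := by
        intro z t hz ht l hl
        rw [add_smul]; exact Submodule.add_mem _ (hz _ hl) (ht _ hl)
      zero_mem' := by intro l hl; rw [zero_smul]; exact Submodule.zero_mem _
      algebraMap_mem' := by
        intro f l hl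
        rw [algebraMap_smul]; exact Submodule.smul_mem _ _ hl }
  have hB : B ≠ ⊤ := by
    intro hB
    apply hnot
    have hKl : M = Kl F K l := Kl_eq_of_mem hl0 hl.1
    rw [hKl]
    intro w hw
    obtain ⟨z, rfl⟩ := mem_Kl.1 hw
    have hz : z ∈ B := by rw [hB]; trivial
    exact (hz l hl).2
  have key2 : ∀ Ψ : V →ₗ[K] K, Ψ a = 0 → Ψ b = 1 → ∀ w' ∈ M', ∃ f : F, algebraMap F K f = Ψ w' := by
    intro Ψ hΨa hΨb w' hw'
    by_contra hcon
    push Not at hcon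
    exact hB (prime_field hr B (ρ := Ψ w') (fun l hl => key Ψ hΨa hΨb w' hw' l hl) hcon)
  refine ⟨y, hy, a, a', b, l, ha, ha', hl0, hbM', hbM, hl.1, hl.2, ?_⟩
  intro w' hw'
  obtain ⟨Ψ, hΨb, hΨa⟩ := exists_dual_line hbM
  obtain ⟨f, hf⟩ := key2 Ψ hΨa hΨb w' hw'
  refine ⟨f, ?_⟩
  by_contra hcon
  have hΨ2 : Ψ (w' - f • b) = 0 := by
    rw [map_sub, ← algebraMap_smul K f b, map_smul, hΨb, ← hf, smul_eq_mul, mul_one, sub_self]
  have hnotspan : w' - f • b ∉ Submodule.span K {a, b} := by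
    intro h
    obtain ⟨α, β, hαβ⟩ := Submodule.mem_span_pair.1 h
    apply hcon
    rw [← hαβ] at hΨ2 ⊢
    rw [map_add, map_smul, map_smul, hΨa, hΨb, smul_zero, zero_add, smul_eq_mul, mul_one] at hΨ2
    rw [hΨ2, zero_smul, add_zero]
    exact smul_mem_Kl _ (self_mem_Kl _)
  obtain ⟨Ψ2, h21, h22⟩ := exists_dual _ hnotspan
  obtain ⟨θ, hθ⟩ := exists_not_mem (F := F) (K := K) hr
  have h3 := key2 (Ψ + θ • Ψ2) (by simp [hΨa, h22 a (Submodule.subset_span (by simp))])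
    (by simp [hΨb, h22 b (Submodule.subset_span (by simp))]) (w' - f • b)
    (Submodule.sub_mem _ hw' (Submodule.smul_mem _ _ hbM'))
  obtain ⟨f', hf'⟩ := h3
  apply hθ f'
  rw [hf', LinearMap.add_apply, LinearMap.smul_apply, hΨ2, h21]
  simp

end Lines

end CfsgLib.Ext19
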