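import Cfsg.Agent.EqBase
import Cfsg.Agent.LibExtA19

set_option autoImplicit false
set_option maxHeartbeats 400000

/-! Overgroups of SL over an extension field: finding a transvection over the small field. -/

namespace CfsgLib.Ext19
open Module

section
variable {F K V : Type*} [Field F] [Field K] [Algebra F K] [AddCommGroup V] [Module F V] [Module K V]
  [IsScalarTower F K V]

/-- the configuration produced by the geometric step -/
structure Cfg (K : Type*) {F V : Type*} [Field F] [Field K] [Algebra F K] [AddCommGroup V] [Module F V] [Module K V]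
    [IsScalarTower F K V] (X : Subgroup (V ≃ₗ[F] V)) (M' : Submodule F V) (a b l a1 : V) (Ψ : V →ₗ[K] K)
    (φ : V →ₗ[F] F) : Prop where
  a0 : a ≠ 0
  l0 : l ≠ 0
  la : l ∈ Kl F K a
  lM : l ∈ M'
  bM : b ∈ M'
  Ψa : Ψ a = 0
  Ψb : Ψ b = 1
  a1a : a1 ∈ Kl F K a
  φa1 : φ a1 = 1
  φA : ∀ w ∈ Kl F K a, w ∈ M' → φ w = 0
  φM : ∀ w ∈ Kl F K a, w - φ w • a1 ∈ M'
  M'b : ∀ w ∈ M', ∃ f : F, Ψ w = algebraMap F K f ∧ w - f • b ∈ Kl F K a
  tf : ∃ T : V → (V →ₗ[F] V), (∀ c d, T (c + d) = T c + T d) ∧ (∀ (s : F) (c : V), T (s • c) = s • T c) ∧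
    (∀ c ∈ M', P X (T c)) ∧ (∀ c, ∀ w ∈ M', T c w = 0) ∧ (∀ c ∈ M', ∀ w, T c w ∈ M') ∧ (∀ c, T c a1 = c) ∧
    (finrank K V = 2 → ∀ c w, c ≠ 0 → T c w = 0 → w ∈ M')
  fr : finrank F ↥(Kl F K a ⊓ M') + 1 = finrank F K

variable [FiniteDimensional F K] [FiniteDimensional F V]

theorem smul_et (s : F) (η : K →ₗ[F] K) (Ψ : V →ₗ[K] K) (a : V) : s • et η Ψ a = et η Ψ (s • a) := by
  ext w
  rw [LinearMap.smul_apply, et_apply, et_apply, smul_comm]

theorem exists_cfg (hr : (finrank F K).Prime) {X : Subgroup (V ≃ₗ[F] V)}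
    (H1 : ∀ (Ψ : V →ₗ[K] K) (a : V), Ψ a = 0 → P X (et LinearMap.id Ψ a))
    {x : V ≃ₗ[F] V} (hx : x ∈ X) {a0 : V} (z0 : K) (hx0 : x (z0 • a0) ∉ Kl F K (x a0)) :
    ∃ (M' : Submodule F V) (a b l a1 : V) (Ψ : V →ₗ[K] K) (φ : V →ₗ[F] F), Cfg K X M' a b l a1 Ψ φ := by
  obtain ⟨y, hy, a, a', b, l, ha, ha', hl0, hbM', hbM, hla, hlM', hM'b⟩ := step2 hr H1 hx z0 hx0
  set M := Kl F K a with hM
  set M' := (Kl F K a').map (y : V →ₗ[F] V) with hM'
  have hmapfr : ∀ (y : V ≃ₗ[F] V) (W : Submodule F V), finrank F (W.map (y : V →ₗ[F] V)) = finrank F W := by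
    intro y W
    exact LinearEquiv.finrank_map_eq y W
  have hfM : finrank F M = finrank F K := finrank_Kl ha
  have hfM' : finrank F M' = finrank F K := by rw [hM', hmapfr, finrank_Kl ha']
  have hnot' : ¬ M' ≤ M := fun h => hbM (h hbM')
  have hnot : ¬ M ≤ M' := fun h => hnot' (Submodule.eq_of_le_of_finrank_eq h (by rw [hfM, hfM'])).ge
  obtain ⟨a1, ha1M, ha1M'⟩ := SetLike.not_le_iff_exists.1 hnot
  obtain ⟨Ψ, hΨb, hΨa⟩ := exists_dual_line hbM
  -- dimension of the intersection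
  have hA : finrank F K ≤ finrank F ↥(M ⊓ M') + 1 := by
    have h1 : M' ≤ (M ⊓ M') ⊔ Submodule.span F {b} := by
      intro w hw
      obtain ⟨f, hf⟩ := hM'b w hw
      rw [Submodule.mem_sup]
      exact ⟨w - f • b, ⟨hf, Submodule.sub_mem _ hw (Submodule.smul_mem _ _ hbM')⟩, f • b,
        Submodule.smul_mem _ _ (Submodule.mem_span_singleton_self b), by abel⟩
    rw [← hfM']
    refine (Submodule.finrank_mono h1).trans ((Submodule.finrank_add_le_finrank_add_finrank _ _).trans ?_)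
    have := finrank_span_le_card (R := F) ({b} : Set V)
    simp only [Set.toFinset_singleton, Finset.card_singleton] at this
    omega
  obtain ⟨φ, hφ1, hφ2⟩ := exists_dual (K := F) (M ⊓ M') (v := a1) (fun h => ha1M' h.2)
  have hlt : M ⊓ M' < (M ⊓ M') ⊔ Submodule.span F {a1} := by
    refine lt_of_le_of_ne le_sup_left (fun h => ?_)
    have : a1 ∈ M ⊓ M' := by
      rw [h]; exact Submodule.mem_sup_right (Submodule.mem_span_singleton_self a1)
    exact ha1M' this.2
  have hle : (M ⊓ M') ⊔ Submodule.span F {a1} ≤ M :=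
    sup_le inf_le_left (by rw [Submodule.span_singleton_le_iff_mem]; exact ha1M)
  have h1 := Submodule.finrank_lt_finrank_of_lt hlt
  have h2 := Submodule.finrank_mono hle
  rw [hfM] at h2
  have heq : (M ⊓ M') ⊔ Submodule.span F {a1} = M :=
    Submodule.eq_of_le_of_finrank_eq hle (by rw [hfM]; omega)
  refine ⟨M', a, b, l, a1, Ψ, φ, ⟨ha, hl0, hla, hlM', hbM', hΨa, hΨb, ha1M, hφ1, fun w hw hw' => hφ2 w ⟨hw, hw'⟩,
    ?_, ?_, ?_, (by change finrank F ↥(M ⊓ M') + 1 = finrank F K; omega)⟩⟩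
  · intro w hw
    have hw' : w ∈ (M ⊓ M') ⊔ Submodule.span F {a1} := by rw [heq]; exact hw
    obtain ⟨u, hu, v, hv, huv⟩ := Submodule.mem_sup.1 hw'
    obtain ⟨f, rfl⟩ := Submodule.mem_span_singleton.1 hv
    rw [← huv, map_add, hφ2 u hu, map_smul, hφ1, zero_add, smul_eq_mul, mul_one, add_sub_cancel_right]
    exact hu.2
  · intro w hw
    obtain ⟨f, hf⟩ := hM'b w hw
    refine ⟨f, ?_, hf⟩
    have := dual_Kl hΨa hf
    rw [map_sub, ← algebraMap_smul K f b, map_smul, hΨb, smul_eq_mul, mul_one, sub_eq_zero] at this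
    exact this
  · have hya1 : y⁻¹ a1 ∉ Kl F K a' := by
      intro h
      apply ha1M'
      have : a1 = y (y⁻¹ a1) := by rw [← LinearEquiv.mul_apply, mul_inv_cancel]; rfl
      rw [this]
      exact Submodule.mem_map.2 ⟨_, h, rfl⟩
    obtain ⟨Ψ0, hΨ01, hΨ0a⟩ := exists_dual_line hya1
    have hinv : ∀ w, y⁻¹ (y w) = w := fun w => by rw [← LinearEquiv.mul_apply, inv_mul_cancel]; rfl
    have hinv' : ∀ w, y (y⁻¹ w) = w := fun w => by rw [← LinearEquiv.mul_apply, mul_inv_cancel]; rfl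
    have hyM : ∀ w ∈ M', y⁻¹ w ∈ Kl F K a' := by
      intro w hw
      obtain ⟨w', hw', hww⟩ := Submodule.mem_map.1 hw
      replace hww : y w' = w := hww
      rw [← hww, hinv]; exact hw'
    refine ⟨fun c => (y : V →ₗ[F] V) ∘ₗ et LinearMap.id Ψ0 (y⁻¹ c) ∘ₗ ((y⁻¹ : V ≃ₗ[F] V) : V →ₗ[F] V),
      ?_, ?_, ?_, ?_, ?_, ?_, ?_⟩
    · intro c d
      ext w
      simp only [LinearMap.comp_apply, LinearEquiv.coe_coe, et_apply, LinearMap.add_apply, map_add, smul_add]
    · intro s c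
      ext w
      simp only [LinearMap.comp_apply, LinearEquiv.coe_coe, et_apply, LinearMap.smul_apply, map_smul]
      rw [smul_comm, map_smul]
    · intro c hc
      exact (H1 Ψ0 (y⁻¹ c) (dual_Kl hΨ0a (hyM c hc))).conj hy
    · intro c w hw
      simp only [LinearMap.comp_apply, LinearEquiv.coe_coe, et_apply]
      rw [dual_Kl hΨ0a (hyM w hw)]; simp
    · intro c hc w
      simp only [LinearMap.comp_apply, LinearEquiv.coe_coe, et_apply]
      exact Submodule.mem_map.2 ⟨_, smul_mem_Kl _ (hyM c hc), rfl⟩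
    · intro c
      simp only [LinearMap.comp_apply, LinearEquiv.coe_coe, et_apply]
      rw [hΨ01]
      simp [hinv']
    · intro h2 c w hc hw
      simp only [LinearMap.comp_apply, LinearEquiv.coe_coe, et_apply] at hw
      rw [LinearEquiv.map_eq_zero_iff, smul_eq_zero] at hw
      rcases hw with hw | hw
      · have hker : y⁻¹ w ∈ Kl F K a' := by
          by_contra hcon
          have hsp : (Submodule.span K {a'}) < LinearMap.ker Ψ0 := by
            refine lt_of_le_of_ne ?_ (fun h => hcon ?_)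
            · rw [Submodule.span_singleton_le_iff_mem]; exact hΨ0a
            · have : y⁻¹ w ∈ LinearMap.ker Ψ0 := hw
              rw [← h] at this
              exact this
          have hfd : FiniteDimensional K V := FiniteDimensional.right F K V
          have h3 := Submodule.finrank_lt_finrank_of_lt hsp
          rw [finrank_span_singleton ha'] at h3
          have h4 : finrank K (LinearMap.ker Ψ0) < finrank K V := by
            apply Submodule.finrank_lt
            intro h5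
            have : y⁻¹ a1 ∈ LinearMap.ker Ψ0 := by rw [h5]; trivial
            rw [LinearMap.mem_ker, hΨ01] at this
            exact one_ne_zero this
          omega
        rw [← hinv' w]
        exact Submodule.mem_map.2 ⟨_, hker, rfl⟩
      · exact absurd (by simpa using hw) hc

/-- the transvection shape found in all cases -/
def HasTv (K : Type*) {F V : Type*} [Field F] [Field K] [Algebra F K] [AddCommGroup V] [Module F V] [Module K V]
    [IsScalarTower F K V] (X : Subgroup (V ≃ₗ[F] V)) : Prop :=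
  ∃ (κ : K →ₗ[F] F) (Ψ : V →ₗ[K] K) (l : V), κ ≠ 0 ∧ Ψ ≠ 0 ∧ l ≠ 0 ∧ Ψ l = 0 ∧
    P X (et (Algebra.linearMap F K ∘ₗ κ) Ψ l)

variable {X : Subgroup (V ≃ₗ[F] V)} {M' : Submodule F V} {a b l a1 : V} {Ψ : V →ₗ[K] K} {φ : V →ₗ[F] F}

theorem Cfg.Ψl (C : Cfg K X M' a b l a1 Ψ φ) : Ψ l = 0 := dual_Kl C.Ψa C.la

theorem Cfg.Ψne (C : Cfg K X M' a b l a1 Ψ φ) : Ψ ≠ 0 := by
  intro h
  have := C.Ψb
  rw [h] at this
  simp at this

/-- the functional `z ↦ φ (z • l)` -/
def kap (φ : V →ₗ[F] F) (l : V) : K →ₗ[F] F := φ ∘ₗ ((LinearMap.toSpanSingleton K V l).restrictScalars F)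

theorem kap_apply (φ : V →ₗ[F] F) (l : V) (z : K) : kap (K := K) φ l z = φ (z • l) := rfl

theorem Cfg.kap_ne (C : Cfg K X M' a b l a1 Ψ φ) : kap (K := K) φ l ≠ 0 := by
  intro h
  have h1 : a1 ∈ Kl F K l := by rw [← Kl_eq_of_mem C.l0 C.la]; exact C.a1a
  obtain ⟨z, hz⟩ := mem_Kl.1 h1
  have h2 := LinearMap.congr_fun h z
  rw [kap_apply, hz, C.φa1] at h2
  simp at h2

/-- value of a member of the second quadratic group on the first line -/
theorem Cfg.t_val (C : Cfg K X M' a b l a1 Ψ φ) {t : V →ₗ[F] V} (ht0 : ∀ w ∈ M', t w = 0) {w : V}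
    (hw : w ∈ Kl F K a) : t w = φ w • t a1 := by
  have h1 := ht0 _ (C.φM w hw)
  rw [map_sub, map_smul, sub_eq_zero] at h1
  exact h1

/-- `|F| ≥ 3` -/
theorem Cfg.tv_of_three (C : Cfg K X M' a b l a1 Ψ φ)
    (H1 : ∀ (Ψ : V →ₗ[K] K) (a : V), Ψ a = 0 → P X (et LinearMap.id Ψ a))
    {x : F} (hx0 : x ≠ 0) (hx1 : x ≠ 1) : HasTv K X := by
  obtain ⟨T0, hT0a, hT0s, hT0P, hT0z, hT0M, hT0v, -⟩ := C.tf
  set t := T0 b with htdef
  have htP : ∀ s : F, P X (s • t) := fun s => by
    rw [htdef, ← hT0s]; exact hT0P _ (Submodule.smul_mem _ _ C.bM)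
  have ht0 : ∀ w ∈ M', t w = 0 := hT0z b
  have htM : ∀ w, t w ∈ M' := hT0M b C.bM
  have hta : t a1 = b := hT0v b
  set n : V →ₗ[F] V := et LinearMap.id Ψ l with hn
  have hnw : ∀ w, n w = Ψ w • l := fun w => by simp [hn]
  have hnM : ∀ w ∈ M', n w ∈ M' := by
    intro w hw
    obtain ⟨f, hf, -⟩ := C.M'b w hw
    rw [hnw, hf, algebraMap_smul]
    exact Submodule.smul_mem _ _ C.lM
  have hnn : ∀ w, n (n w) = 0 := by
    intro w; rw [hnw, hnw, map_smul, C.Ψl]; simp
  have hPn : ∀ s : F, P X (s • n) := by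
    intro s
    rw [hn, smul_et]
    apply H1
    rw [← algebraMap_smul K s l, map_smul, C.Ψl, smul_zero]
  have hntn : ∀ w, n (t (n w)) = φ (Ψ w • l) • l := by
    intro w
    rw [hnw w, C.t_val ht0 (smul_mem_Kl _ C.la), hta, map_smul, hnw, C.Ψb, one_smul]
  -- conjugates
  have hconj : ∀ s u : F, P X (u • (t - s • (t ∘ₗ n) + s • (n ∘ₗ t) - (s * s) • (n ∘ₗ t ∘ₗ n))) := by
    intro s u
    obtain ⟨g, hg, hg'⟩ := hPn s
    have hgi : ∀ w, g⁻¹ w = w - s • n w := by
      intro w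
      apply g.injective
      have h5 : g (g⁻¹ w) = w := by rw [← LinearEquiv.mul_apply, mul_inv_cancel]; rfl
      rw [h5, hg']
      simp [hnn]
    refine ((htP u).conj hg).congr fun w => ?_
    simp only [LinearMap.comp_apply, LinearEquiv.coe_coe, hgi, hg', LinearMap.smul_apply, map_sub, map_smul,
      LinearMap.sub_apply, LinearMap.add_apply]
    module
  set T : F → (V →ₗ[F] V) := fun s => t - s • (t ∘ₗ n) + s • (n ∘ₗ t) - (s * s) • (n ∘ₗ t ∘ₗ n) with hT
  have hT0 : ∀ s, ∀ w ∈ M', T s w = 0 := by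
    intro s w hw
    simp only [hT, LinearMap.sub_apply, LinearMap.add_apply, LinearMap.smul_apply, LinearMap.comp_apply,
      ht0 w hw, ht0 _ (hnM w hw), map_zero, smul_zero, sub_zero, add_zero]
  have hTM : ∀ s w, T s w ∈ M' := by
    intro s w
    simp only [hT, LinearMap.sub_apply, LinearMap.add_apply, LinearMap.smul_apply, LinearMap.comp_apply]
    exact Submodule.sub_mem _ (Submodule.add_mem _ (Submodule.sub_mem _ (htM _) (Submodule.smul_mem _ _ (htM _)))
      (Submodule.smul_mem _ _ (hnM _ (htM _)))) (Submodule.smul_mem _ _ (hnM _ (htM _)))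
  have e1 : P X (T x) := by simpa using hconj x 1
  have e2 : P X (x • T 1) := hconj 1 x
  have e3 : P X t := by simpa using htP 1
  have e4 : P X (x • t) := htP x
  have e5 : P X (-(x • T 1)) := e2.neg (fun w => by
    simp only [LinearMap.smul_apply, map_smul]
    rw [hT0 1 _ (hTM 1 w)]; simp)
  have e6 : P X (-t) := e3.neg (fun w => ht0 _ (htM w))
  have e7 : P X (T x + -(x • T 1)) := e1.add e5 (fun w => by
    simp only [LinearMap.neg_apply, LinearMap.smul_apply, map_neg, map_smul]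
    rw [hT0 x _ (hTM 1 w)]; simp)
  have e8 : P X (-t + x • t) := e6.add e4 (fun w => by
    simp only [LinearMap.neg_apply, LinearMap.smul_apply, map_smul]
    rw [ht0 _ (htM w)]; simp)
  have e9 : P X (T x + -(x • T 1) + (-t + x • t)) := e7.add e8 (fun w => by
    have h1 : (-t + x • t) w ∈ M' := by
      simp only [LinearMap.add_apply, LinearMap.neg_apply, LinearMap.smul_apply]
      exact Submodule.add_mem _ (Submodule.neg_mem _ (htM w)) (Submodule.smul_mem _ _ (htM w))
    simp only [LinearMap.add_apply (T x), LinearMap.neg_apply, LinearMap.smul_apply]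
    rw [hT0 x _ h1, hT0 1 _ h1]; simp)
  refine ⟨(-(x * x - x)) • kap φ l, Ψ, l, ?_, C.Ψne, C.l0, C.Ψl, e9.congr fun w => ?_⟩
  · intro h
    rcases smul_eq_zero.1 h with h | h
    · rw [neg_eq_zero, sub_eq_zero] at h
      apply hx1
      exact mul_left_cancel₀ hx0 (by rw [h, mul_one])
    · exact C.kap_ne h
  · simp only [hT, LinearMap.sub_apply, LinearMap.add_apply, LinearMap.smul_apply, LinearMap.comp_apply,
      LinearMap.neg_apply, hntn, et_apply, kap_apply, Algebra.linearMap_apply, smul_eq_mul, algebraMap_smul,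
      one_smul, one_mul]
    module

/-- dimension at least three over the big field -/
theorem Cfg.tv_of_dim_three (C : Cfg K X M' a b l a1 Ψ φ)
    (H1 : ∀ (Ψ : V →ₗ[K] K) (a : V), Ψ a = 0 → P X (et LinearMap.id Ψ a))
    (h3 : 3 ≤ finrank K V) : HasTv K X := by
  classical
  have hfd : FiniteDimensional K V := FiniteDimensional.right F K V
  have hne : Submodule.span K {a, b} ≠ ⊤ := by
    intro h
    have h1 := finrank_span_le_card (R := K) ({a, b} : Set V)
    rw [h, finrank_top] at h1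
    have h2 : ({a, b} : Set V).toFinset.card ≤ 2 := by
      rw [Set.toFinset_insert, Set.toFinset_singleton]
      exact Finset.card_le_two
    omega
  obtain ⟨v, -, hv⟩ := SetLike.exists_of_lt (lt_top_iff_ne_top.2 hne)
  obtain ⟨Θ, hΘv, hΘ⟩ := exists_dual _ hv
  have hΘa : Θ a = 0 := hΘ a (Submodule.subset_span (by simp))
  have hΘb : Θ b = 0 := hΘ b (Submodule.subset_span (by simp))
  have hΘM : ∀ w ∈ M', Θ w = 0 := by
    intro w hw
    obtain ⟨f, -, hf⟩ := C.M'b w hw
    have := dual_Kl hΘa hf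
    rw [map_sub, ← algebraMap_smul K f b, map_smul, hΘb, smul_zero, sub_zero] at this
    exact this
  obtain ⟨T0, hT0a, hT0s, hT0P, hT0z, hT0M, hT0v, -⟩ := C.tf
  have h1 : P X (T0 l ∘ₗ et LinearMap.id Θ a) := by
    refine P.comm (hT0P l C.lM) (H1 Θ a hΘa) ?_ ?_ ?_
    · intro w; exact hT0z l _ (hT0M l C.lM w)
    · intro w
      simp only [et_apply, LinearMap.id_apply, map_smul, hΘa, smul_zero, zero_smul]
    · intro w
      simp only [et_apply, LinearMap.id_apply, hΘM _ (hT0M l C.lM w), zero_smul]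
  refine ⟨kap φ a, Θ, l, ?_, ?_, C.l0, hΘM l C.lM, h1.congr fun w => ?_⟩
  · intro h
    obtain ⟨z, hz⟩ := mem_Kl.1 C.a1a
    have h2 := LinearMap.congr_fun h z
    rw [kap_apply, hz, C.φa1] at h2
    simp at h2
  · intro h
    rw [h] at hΘv; simp at hΘv
  · simp only [LinearMap.comp_apply, et_apply, LinearMap.id_apply, kap_apply, Algebra.linearMap_apply, algebraMap_smul]
    rw [C.t_val (hT0z l) (smul_mem_Kl _ (self_mem_Kl _)), hT0v]

end

end CfsgLib.Ext19
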