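import Cfsg.Agent.EqBase
import Cfsg.Agent.LibExtB19

set_option autoImplicit false
set_option maxHeartbeats 400000

/-! Overgroups of SL over an extension field: the small field with two elements. -/

namespace CfsgLib.Ext19
open Module

section
variable {F K V : Type*} [Field F] [Field K] [Algebra F K] [AddCommGroup V] [Module F V] [Module K V]
  [IsScalarTower F K V]
variable {X : Subgroup (V ≃ₗ[F] V)} {M' : Submodule F V} {a b l a1 : V} {Ψ : V →ₗ[K] K} {φ : V →ₗ[F] F}

section
variable [FiniteDimensional F K]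

theorem exists_repr {κ : K →ₗ[F] F} (hκ : κ ≠ 0) (f : K →ₗ[F] F) : ∃ k : K, ∀ z, f z = κ (k * z) := by
  let Φ : K →ₗ[F] (K →ₗ[F] F) :=
    { toFun := fun k => κ ∘ₗ LinearMap.mulLeft F k
      map_add' := by
        intro x y
        ext z
        simp [add_mul]
      map_smul' := by
        intro x y
        ext z
        simp }
  have hinj : Function.Injective Φ := by
    rw [injective_iff_map_eq_zero]
    intro k hk
    by_contra hk0
    apply hκ
    ext z
    have := LinearMap.congr_fun hk (k⁻¹ * z)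
    simp only [Φ, LinearMap.coe_mk, AddHom.coe_mk, LinearMap.comp_apply, LinearMap.mulLeft_apply,
      LinearMap.zero_apply] at this
    rw [← mul_assoc, mul_inv_cancel₀ hk0, one_mul] at this
    simpa using this
  have hsurj : Function.Surjective Φ :=
    (LinearMap.injective_iff_surjective_of_finrank_eq_finrank (Subspace.dual_finrank_eq.symm)).1 hinj
  obtain ⟨k, hk⟩ := hsurj f
  exact ⟨k, fun z => by rw [← hk]; rfl⟩

end

theorem Q_add {η η' : K →ₗ[F] K} (hΨ : Ψ l = 0) (h1 : P X (et η Ψ l)) (h2 : P X (et η' Ψ l)) :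
    P X (et (η + η') Ψ l) := by
  refine (h1.add h2 ?_).congr ?_
  · intro w; simp only [et_apply, map_smul, hΨ, smul_zero, map_zero, zero_smul]
  · intro w; simp only [et_apply, LinearMap.add_apply, add_smul]

theorem Q_neg {η : K →ₗ[F] K} (hΨ : Ψ l = 0) (h1 : P X (et η Ψ l)) : P X (et (-η) Ψ l) := by
  refine (h1.neg ?_).congr ?_
  · intro w; simp only [et_apply, map_smul, hΨ, smul_zero, map_zero, zero_smul]
  · intro w; simp only [et_apply, LinearMap.neg_apply, neg_smul]

theorem Q_zero : P X (et (0 : K →ₗ[F] K) Ψ l) := P.zero.congr (fun w => by simp)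

theorem Q_sum {ι : Type*} (s : Finset ι) {η : ι → (K →ₗ[F] K)} (hΨ : Ψ l = 0) (h : ∀ i ∈ s, P X (et (η i) Ψ l)) :
    P X (et (∑ i ∈ s, η i) Ψ l) := by
  classical
  induction s using Finset.induction_on with
  | empty => rw [Finset.sum_empty]; exact Q_zero
  | insert i s hi ih =>
    rw [Finset.sum_insert hi]
    exact Q_add hΨ (h i (Finset.mem_insert_self _ _)) (ih fun j hj => h j (Finset.mem_insert_of_mem hj))

theorem Q_left (H2 : ∀ (Θ : V →ₗ[K] K) (c : V) (ν : K), Θ c = 1 → Algebra.norm F ν = 1 →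
      P X (et (LinearMap.mulLeft F (ν - 1)) Θ c))
    {η : K →ₗ[F] K} (hΨ : Ψ l = 0) (hl : l ≠ 0) {ν : K} (hν : Algebra.norm F ν = 1)
    (h1 : P X (et η Ψ l)) : P X (et (LinearMap.mulLeft F ν ∘ₗ η) Ψ l) := by
  obtain ⟨Θ, hΘ, -⟩ := exists_dual (K := K) (⊥ : Submodule K V) (v := l) (by simpa using hl)
  obtain ⟨y, hy, hy'⟩ := H2 Θ l ν hΘ hν
  refine (h1.conj hy).congr fun w => ?_
  have h5 : y (y⁻¹ w) = w := by rw [← LinearEquiv.mul_apply, mul_inv_cancel]; rfl
  have h6 : Ψ (y⁻¹ w) = Ψ w := by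
    conv_rhs => rw [← h5, hy']
    simp only [et_apply, map_add, map_smul, hΨ, smul_zero, add_zero]
  simp only [LinearMap.comp_apply, LinearEquiv.coe_coe, et_apply, h6, hy', map_smul, hΘ, LinearMap.mulLeft_apply,
    smul_eq_mul, mul_one]
  rw [← add_smul]
  congr 1
  ring

theorem Q_right [FiniteDimensional F K] (H2 : ∀ (Θ : V →ₗ[K] K) (c : V) (ν : K), Θ c = 1 → Algebra.norm F ν = 1 →
      P X (et (LinearMap.mulLeft F (ν - 1)) Θ c))
    {η : K →ₗ[F] K} (hΨ : Ψ l = 0) (hΨ0 : Ψ ≠ 0) {ν : K} (hν : Algebra.norm F ν = 1)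
    (h1 : P X (et η Ψ l)) : P X (et (η ∘ₗ LinearMap.mulLeft F ν) Ψ l) := by
  have hν0 : ν ≠ 0 := by
    rintro rfl
    rw [Algebra.norm_zero] at hν
    exact zero_ne_one hν
  obtain ⟨c, hc⟩ : ∃ c, Ψ c ≠ 0 := by
    by_contra hcon
    push Not at hcon
    exact hΨ0 (LinearMap.ext hcon)
  have hc1 : Ψ ((Ψ c)⁻¹ • c) = 1 := by rw [map_smul, smul_eq_mul, inv_mul_cancel₀ hc]
  set c' := (Ψ c)⁻¹ • c with hc'
  have hν' : Algebra.norm F ν⁻¹ = 1 := by
    have h := map_mul (Algebra.norm F) ν ν⁻¹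
    rw [mul_inv_cancel₀ hν0, map_one, hν, one_mul] at h
    exact h.symm
  obtain ⟨y, hy, hy'⟩ := H2 Ψ c' ν⁻¹ hc1 hν'
  refine (h1.conj hy).congr fun w => ?_
  have h5 : y (y⁻¹ w) = w := by rw [← LinearEquiv.mul_apply, mul_inv_cancel]; rfl
  have h6 : ν * Ψ w = Ψ (y⁻¹ w) := by
    conv_lhs => rw [← h5, hy']
    simp only [et_apply, map_add, map_smul, hc1, LinearMap.mulLeft_apply, smul_eq_mul, mul_one]
    field_simp
    ring
  simp only [LinearMap.comp_apply, LinearEquiv.coe_coe, et_apply, hy', map_smul, hΨ, LinearMap.mulLeft_apply,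
    smul_eq_mul, mul_zero, zero_smul, add_zero, h6]

variable [FiniteDimensional F K] [FiniteDimensional F V]

/-- the field with two elements, degree at least three -/
theorem Cfg.tv_bimod (hsep : Algebra.IsSeparable F K) (hr : (finrank F K).Prime) (hr3 : 3 ≤ finrank F K)
    (C : Cfg K X M' a b l a1 Ψ φ)
    (H1 : ∀ (Ψ : V →ₗ[K] K) (a : V), Ψ a = 0 → P X (et LinearMap.id Ψ a))
    (H2 : ∀ (Θ : V →ₗ[K] K) (c : V) (ν : K), Θ c = 1 → Algebra.norm F ν = 1 →
      P X (et (LinearMap.mulLeft F (ν - 1)) Θ c))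
    (hF : ∀ x : F, x = 0 ∨ x = 1) : HasTv K X := by
  have hchar : (1 : F) + 1 = 0 := by
    rcases hF (1 + 1) with h | h
    · exact h
    · exact absurd (left_eq_add.1 h.symm) one_ne_zero
  have hcharK : ∀ x : K, x + x = 0 := by
    intro x
    have : x + x = (algebraMap F K (1 + 1)) * x := by rw [map_add, map_one]; ring
    rw [this, hchar, map_zero, zero_mul]
  have hnorm : ∀ ν : K, ν ≠ 0 → Algebra.norm F ν = 1 := by
    intro ν hν
    rcases hF (Algebra.norm F ν) with h | h
    · exact absurd (Algebra.norm_eq_zero_iff.1 h) hν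
    · exact h
  obtain ⟨T0, hT0a, hT0s, hT0P, hT0z, hT0M, hT0v, -⟩ := C.tf
  set t := T0 b with htdef
  have htP : P X t := hT0P _ C.bM
  have ht0 : ∀ w ∈ M', t w = 0 := hT0z b
  have htM : ∀ w, t w ∈ M' := hT0M b C.bM
  have hta : t a1 = b := hT0v b
  set n : V → (V →ₗ[F] V) := fun l => et LinearMap.id Ψ l with hn
  have hnw : ∀ l w, n l w = Ψ w • l := fun l w => by simp [hn]
  have hΨA : ∀ l ∈ Kl F K a, Ψ l = 0 := fun l hl => dual_Kl C.Ψa hl
  have hnM : ∀ l ∈ Kl F K a, l ∈ M' → ∀ w ∈ M', n l w ∈ M' := by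
    intro l hl hlM w hw
    obtain ⟨f, hf, -⟩ := C.M'b w hw
    rw [hnw, hf, algebraMap_smul]
    exact Submodule.smul_mem _ _ hlM
  have hnn : ∀ l ∈ Kl F K a, ∀ l', ∀ w, n l' (n l w) = 0 := by
    intro l hl l' w; rw [hnw, hnw, map_smul, hΨA l hl]; simp
  have hPn : ∀ l ∈ Kl F K a, P X (n l) := by
    intro l hl
    exact H1 _ _ (hΨA l hl)
  have hntn : ∀ l ∈ Kl F K a, ∀ l' ∈ Kl F K a, ∀ w, n l (t (n l' w)) = φ (Ψ w • l') • l := by
    intro l hl l' hl' w
    rw [hnw l' w, C.t_val ht0 (smul_mem_Kl _ hl'), hta, map_smul, hnw, C.Ψb, one_smul]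
  -- conjugates
  have hconj : ∀ l ∈ Kl F K a, P X (t - t ∘ₗ n l + n l ∘ₗ t - n l ∘ₗ t ∘ₗ n l) := by
    intro l hl
    obtain ⟨g, hg, hg'⟩ := hPn l hl
    have hgi : ∀ w, g⁻¹ w = w - n l w := by
      intro w
      apply g.injective
      have h5 : g (g⁻¹ w) = w := by rw [← LinearEquiv.mul_apply, mul_inv_cancel]; rfl
      rw [h5, hg']
      simp [hnn l hl l]
    refine (htP.conj hg).congr fun w => ?_
    simp only [LinearMap.comp_apply, LinearEquiv.coe_coe, hgi, hg', map_sub,
      LinearMap.sub_apply, LinearMap.add_apply]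
    abel
  set T : V → (V →ₗ[F] V) := fun l => t - t ∘ₗ n l + n l ∘ₗ t - n l ∘ₗ t ∘ₗ n l with hT
  have hTz : ∀ l ∈ Kl F K a, l ∈ M' → ∀ w ∈ M', T l w = 0 := by
    intro l hl hlM w hw
    simp only [hT, LinearMap.sub_apply, LinearMap.add_apply, LinearMap.comp_apply,
      ht0 w hw, ht0 _ (hnM l hl hlM w hw), map_zero, sub_zero, add_zero]
  have hTM : ∀ l ∈ Kl F K a, l ∈ M' → ∀ w, T l w ∈ M' := by
    intro l hl hlM w
    simp only [hT, LinearMap.sub_apply, LinearMap.add_apply, LinearMap.comp_apply]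
    exact Submodule.sub_mem _ (Submodule.add_mem _ (Submodule.sub_mem _ (htM _) (htM _))
      ((hnM l hl hlM _ (htM _)))) ((hnM l hl hlM _ (htM _)))
  -- the polarised element
  have hpol : ∀ l ∈ Kl F K a, l ∈ M' → ∀ l' ∈ Kl F K a, l' ∈ M' →
      P X (-(n l ∘ₗ t ∘ₗ n l') - n l' ∘ₗ t ∘ₗ n l) := by
    intro l hl hlM l' hl' hlM'
    have hs := Submodule.add_mem _ hl hl'
    have hsM := Submodule.add_mem _ hlM hlM'
    have e1 := hconj (l + l') hs
    have e2 : P X (-T l) := (hconj l hl).neg (fun w => hTz l hl hlM _ (hTM l hl hlM w))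
    have e3 : P X (-T l') := (hconj l' hl').neg (fun w => hTz l' hl' hlM' _ (hTM l' hl' hlM' w))
    have e4 : P X (T (l + l') + -T l) := e1.add e2 (fun w => by
      rw [LinearMap.neg_apply, map_neg]
      change -(T (l + l') _) = 0
      rw [hTz _ hs hsM _ (hTM l hl hlM w), neg_zero])
    have e5 : P X (-T l' + t) := e3.add htP (fun w => by
      rw [LinearMap.neg_apply, hTz l' hl' hlM' _ (htM w), neg_zero])
    have e6 : P X (T (l + l') + -T l + (-T l' + t)) := e4.add e5 (fun w => by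
      have h1 : (-T l' + t) w ∈ M' := by
        simp only [LinearMap.add_apply, LinearMap.neg_apply]
        exact Submodule.add_mem _ (Submodule.neg_mem _ (hTM l' hl' hlM' w)) (htM w)
      rw [LinearMap.add_apply, LinearMap.neg_apply, hTz _ hs hsM _ h1, hTz _ hl hlM _ h1]
      simp)
    refine e6.congr fun w => ?_
    have hnadd : ∀ w, n (l + l') w = n l w + n l' w := fun w => by rw [hnw, hnw, hnw, smul_add]
    simp only [hT, LinearMap.sub_apply, LinearMap.add_apply, LinearMap.comp_apply,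
      LinearMap.neg_apply, hnadd, map_add]
    abel
  -- an element outside the prime field
  obtain ⟨l', hl', hlM', ρ, hρ, hρF⟩ : ∃ l' ∈ Kl F K a, l' ∈ M' ∧ ∃ ρ : K, ρ • l = l' ∧
      ∀ f : F, algebraMap F K f ≠ ρ := by
    have hlt : Submodule.span F {l} < Kl F K a ⊓ M' := by
      refine lt_of_le_of_ne ?_ ?_
      · rw [Submodule.span_singleton_le_iff_mem]; exact ⟨C.la, C.lM⟩
      · intro h
        have h1 := C.fr
        rw [← h, finrank_span_singleton C.l0] at h1
        omega
    obtain ⟨l', hl', hl'n⟩ := SetLike.exists_of_lt hlt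
    have h1 : l' ∈ Kl F K l := by rw [← Kl_eq_of_mem C.l0 C.la]; exact hl'.1
    obtain ⟨ρ, hρ⟩ := mem_Kl.1 h1
    refine ⟨l', hl'.1, hl'.2, ρ, hρ, ?_⟩
    intro f hf
    apply hl'n
    rw [← hρ, ← hf, algebraMap_smul]
    exact Submodule.smul_mem _ _ (Submodule.mem_span_singleton_self l)
  set κ : K →ₗ[F] F := kap φ l with hκ
  have hκ0 : κ ≠ 0 := C.kap_ne
  let κ' : K →ₗ[F] K := Algebra.linearMap F K ∘ₗ κ
  have hκ' : ∀ z, κ' z = algebraMap F K (κ z) := fun z => rfl
  have hΨl := C.Ψl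
  let D : K → (K →ₗ[F] K) := fun α => κ' ∘ₗ LinearMap.mulLeft F α + LinearMap.mulLeft F α ∘ₗ κ'
  have hDρ : P X (et (D ρ) Ψ l) := by
    refine (hpol l C.la C.lM l' hl' hlM').congr fun w => ?_
    rw [LinearMap.sub_apply, LinearMap.neg_apply, LinearMap.comp_apply, LinearMap.comp_apply,
      LinearMap.comp_apply, LinearMap.comp_apply, hntn l C.la l' hl', hntn l' hl' l C.la, et_apply]
    simp only [D, LinearMap.add_apply, LinearMap.comp_apply, LinearMap.mulLeft_apply, hκ', hκ, kap_apply]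
    have hneg : ∀ v : V, -v = v := by
      intro v
      have : v + v = 0 := by
        have h : v + v = ((1 : F) + 1) • v := by rw [add_smul, one_smul]
        rw [h, hchar, zero_smul]
      exact neg_eq_of_add_eq_zero_left this
    have e1 : Ψ w • l' = (ρ * Ψ w) • l := by rw [← hρ, smul_smul, mul_comm]
    have e2 : ∀ c : F, (ρ * algebraMap F K c) • l = c • l' := by
      intro c
      rw [mul_comm, ← smul_smul, algebraMap_smul, hρ]
    rw [e1, add_smul, algebraMap_smul, e2, sub_eq_add_neg, hneg, hneg]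
  have hL : ∀ (z : K) {η : K →ₗ[F] K}, P X (et η Ψ l) → P X (et (LinearMap.mulLeft F z ∘ₗ η) Ψ l) := by
    intro z η h
    by_cases hz : z = 0
    · subst hz
      refine (Q_zero (Ψ := Ψ) (l := l)).congr fun w => ?_
      simp
    · exact Q_left H2 hΨl C.l0 (hnorm z hz) h
  have hR : ∀ (z : K) {η : K →ₗ[F] K}, P X (et η Ψ l) → P X (et (η ∘ₗ LinearMap.mulLeft F z) Ψ l) := by
    intro z η h
    by_cases hz : z = 0
    · subst hz
      refine (Q_zero (Ψ := Ψ) (l := l)).congr fun w => ?_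
      simp
    · exact Q_right H2 hΨl C.Ψne (hnorm z hz) h
  let B : Subalgebra F K :=
    { carrier := {z | P X (et (D z) Ψ l)}
      mul_mem' := by
        intro x y hx hy
        have h1 := Q_add hΨl (hR y hx) (hL x hy)
        refine h1.congr fun w => ?_
        simp only [et_apply, D, LinearMap.add_apply, LinearMap.comp_apply, LinearMap.mulLeft_apply]
        congr 1
        have h2 := hcharK (x * (κ' (y * Ψ w)))
        rw [← mul_assoc]
        linear_combination h2
      one_mem' := by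
        refine (Q_zero (Ψ := Ψ) (l := l)).congr fun w => ?_
        simp only [et_apply, D, LinearMap.add_apply, LinearMap.comp_apply, LinearMap.mulLeft_apply,
          LinearMap.zero_apply, one_mul, hcharK]
      add_mem' := by
        intro x y hx hy
        refine (Q_add hΨl hx hy).congr fun w => ?_
        simp only [et_apply, D, LinearMap.add_apply, LinearMap.comp_apply, LinearMap.mulLeft_apply, add_mul, map_add]
        congr 1
        ring
      zero_mem' := by
        refine (Q_zero (Ψ := Ψ) (l := l)).congr fun w => ?_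
        simp [D]
      algebraMap_mem' := by
        intro f
        refine (Q_zero (Ψ := Ψ) (l := l)).congr fun w => ?_
        simp only [et_apply, D, LinearMap.add_apply, LinearMap.comp_apply, LinearMap.mulLeft_apply,
          LinearMap.zero_apply]
        rw [← Algebra.smul_def, map_smul, ← Algebra.smul_def, hcharK] }
  have hBtop : B = ⊤ := prime_field hr B (ρ := ρ) hDρ hρF
  have hDall : ∀ z, P X (et (D z) Ψ l) := by
    intro z
    have : z ∈ B := by rw [hBtop]; trivial
    exact this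
  -- dual basis
  let e := Module.finBasis F K
  choose es hes using fun i => exists_repr hκ0 (e.coord i)
  have hid : P X (et (LinearMap.id : K →ₗ[F] K) Ψ l) := H1 Ψ l hΨl
  have hsum : P X (et (∑ i, LinearMap.mulLeft F (e i) ∘ₗ D (es i)) Ψ l) :=
    Q_sum _ hΨl (fun i _ => hL _ (hDall _))
  have hs : P X (et (LinearMap.mulLeft F (∑ i, e i * es i) ∘ₗ κ') Ψ l) := by
    refine (Q_add hΨl hid hsum).congr fun w => ?_
    simp only [et_apply]
    congr 1
    simp only [D, LinearMap.add_apply, LinearMap.sum_apply, LinearMap.comp_apply, LinearMap.mulLeft_apply,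
      LinearMap.id_apply, mul_add, Finset.sum_add_distrib]
    have h1 : ∑ i, e i * κ' (es i * Ψ w) = Ψ w := by
      conv_rhs => rw [← e.sum_repr (Ψ w)]
      refine Finset.sum_congr rfl fun i _ => ?_
      rw [hκ', ← hes i, Basis.coord_apply, Algebra.smul_def, mul_comm]
    rw [h1, ← add_assoc, hcharK, zero_add, Finset.sum_mul]
    exact Finset.sum_congr rfl fun i _ => by ring
  have hs0 : (∑ i, e i * es i) ≠ 0 := by
    intro h0
    obtain ⟨x, hx⟩ := Algebra.trace_surjective F K 1
    have h1 : Algebra.trace F K x = κ ((∑ i, e i * es i) * x) := by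
      rw [Algebra.trace_eq_matrix_trace e, Matrix.trace, Finset.sum_mul, map_sum]
      refine Finset.sum_congr rfl fun i _ => ?_
      rw [Matrix.diag_apply, Algebra.leftMulMatrix_eq_repr_mul, ← Basis.coord_apply, hes i]
      congr 1; ring
    rw [h0, zero_mul, map_zero, hx] at h1
    exact one_ne_zero h1
  refine ⟨κ, Ψ, l, hκ0, C.Ψne, C.l0, hΨl, ?_⟩
  refine (hL (∑ i, e i * es i)⁻¹ hs).congr fun w => ?_
  simp only [et_apply, LinearMap.comp_apply, LinearMap.mulLeft_apply]
  rw [← mul_assoc, inv_mul_cancel₀ hs0, one_mul]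
  rfl

end

end CfsgLib.Ext19
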