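import Cfsg.Agent.EqBase
import Cfsg.Agent.LibExtC19

set_option autoImplicit false
set_option maxHeartbeats 400000

/-! Overgroups of SL over an extension field: `GL_2(4)` in `GL_4(2)`. -/

namespace CfsgLib.Ext19
open Module

section
variable {F K V : Type*} [Field F] [Field K] [Algebra F K] [AddCommGroup V] [Module F V] [Module K V]
  [IsScalarTower F K V]
variable {X : Subgroup (V ≃ₗ[F] V)} {M' : Submodule F V} {a b l a1 : V} {Ψ : V →ₗ[K] K} {φ : V →ₗ[F] F}
variable [FiniteDimensional F K] [FiniteDimensional F V]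

/-- coordinates in an extension of degree two -/
theorem deg_two (h2 : finrank F K = 2) {θ : K} (hθ : ∀ f : F, algebraMap F K f ≠ θ) (z : K) :
    ∃ x y : F, z = algebraMap F K x + algebraMap F K y * θ := by
  have hli : LinearIndependent F ![(1 : K), θ] := by
    rw [LinearIndependent.pair_iff]
    intro s t hst
    have ht : t = 0 := by
      by_contra ht
      apply hθ (-(t⁻¹ * s))
      have h1 : algebraMap F K s + algebraMap F K t * θ = 0 := by
        rw [Algebra.smul_def, Algebra.smul_def, mul_one] at hst; exact hst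
      have h2 : algebraMap F K t ≠ 0 := by simpa using ht
      rw [map_neg, map_mul, map_inv₀]
      field_simp
      linear_combination -h1
    subst ht
    rw [zero_smul, add_zero, smul_eq_zero] at hst
    exact ⟨hst.resolve_right one_ne_zero, rfl⟩
  have hsp : Submodule.span F (Set.range ![(1 : K), θ]) = ⊤ :=
    hli.span_eq_top_of_card_eq_finrank (by simp [h2])
  have hz : z ∈ Submodule.span F (Set.range ![(1 : K), θ]) := by rw [hsp]; trivial
  rw [Matrix.range_cons, Matrix.range_cons, Matrix.range_empty, Set.union_empty, Set.singleton_union] at hz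
  obtain ⟨x, y, hxy⟩ := Submodule.mem_span_pair.1 hz
  exact ⟨x, y, by rw [← hxy, Algebra.smul_def, Algebra.smul_def, mul_one]⟩

/-- the field with two elements, degree two, dimension two -/
theorem Cfg.tv_four (hr2 : finrank F K = 2) (hV : finrank K V = 2)
    (C : Cfg K X M' a b l a1 Ψ φ)
    (H3 : ∀ f g : V →ₗ[K] V, (∀ w, g (f w) = w) → (∀ w, f (g w) = w) → ∃ y ∈ X, ∀ w, y w = f w)
    (hF : ∀ x : F, x = 0 ∨ x = 1) : HasTv K X := by
  have hchar : (1 : F) + 1 = 0 := by
    rcases hF (1 + 1) with h | h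
    · exact h
    · exact absurd (left_eq_add.1 h.symm) one_ne_zero
  have hcharK : ∀ x : K, x + x = 0 := by
    intro x
    have : x + x = (algebraMap F K (1 + 1)) * x := by rw [map_add, map_one]; ring
    rw [this, hchar, map_zero, zero_mul]
  have h2 : ∀ v : V, v + v = 0 := by
    intro v
    have h : v + v = ((1 : F) + 1) • v := by rw [add_smul, one_smul]
    rw [h, hchar, zero_smul]
  have h20 : (2 : K) = 0 := by have := hcharK 1; rwa [one_add_one_eq_two] at this
  have h30 : (3 : K) = 1 := by linear_combination h20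
  have h40 : (4 : K) = 0 := by linear_combination 2 * h20
  have h50 : (5 : K) = 1 := by linear_combination 2 * h20
  have h60 : (6 : K) = 0 := by linear_combination 3 * h20
  have h70 : (7 : K) = 1 := by linear_combination 3 * h20
  have h80 : (8 : K) = 0 := by linear_combination 4 * h20
  have h90 : (9 : K) = 1 := by linear_combination 4 * h20
  have hA0 : (10 : K) = 0 := by linear_combination 5 * h20
  have hE0 : (14 : K) = 0 := by linear_combination 7 * h20
  have hG0 : (16 : K) = 0 := by linear_combination 8 * h20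
  have hfd : FiniteDimensional K V := FiniteDimensional.right F K V
  have hr : (finrank F K).Prime := by rw [hr2]; exact Nat.prime_two
  obtain ⟨θ, hθ⟩ := exists_not_mem (F := F) (K := K) hr
  have hθ2 : θ * θ = θ + 1 := by
    obtain ⟨x, y, hxy⟩ := deg_two hr2 hθ (θ * θ)
    rcases hF x with rfl | rfl <;> rcases hF y with rfl | rfl
    · exfalso
      rw [map_zero, zero_mul, add_zero] at hxy
      exact hθ 0 (by rw [map_zero]; exact (mul_self_eq_zero.1 hxy).symm)
    · exfalso
      rw [map_zero, map_one, one_mul, zero_add] at hxy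
      by_cases h0 : θ = 0
      · exact hθ 0 (by rw [map_zero, h0])
      · exact hθ 1 (by rw [map_one]; exact (mul_left_cancel₀ h0 (by rw [hxy, mul_one])).symm)
    · exfalso
      rw [map_zero, map_one, zero_mul, add_zero] at hxy
      have h3 : (θ + 1) * (θ + 1) = 0 := by
        have h4 := hcharK (θ + 1)
        linear_combination hxy + h4
      have h5 := mul_self_eq_zero.1 h3
      apply hθ 1
      rw [map_one]
      have h6 := hcharK 1
      linear_combination h6 - h5
    · rw [hxy, map_one, one_mul, add_comm]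
  obtain ⟨T0, hT0a, hT0s, hT0P, hT0z, hT0M, hT0v, hT0k⟩ := C.tf
  -- the dual functional
  have hlb : l ∉ Submodule.span K {b} := by
    intro h
    obtain ⟨z, hz⟩ := Submodule.mem_span_singleton.1 h
    have h3 : Ψ (z • b) = 0 := by rw [hz]; exact C.Ψl
    rw [map_smul, C.Ψb, smul_eq_mul, mul_one] at h3
    rw [h3, zero_smul] at hz
    exact C.l0 hz.symm
  obtain ⟨Λ, hΛl, hΛ⟩ := exists_dual _ hlb
  have hΛb : Λ b = 0 := hΛ b (Submodule.mem_span_singleton_self b)
  have hcoord : ∀ w, w = Λ w • l + Ψ w • b := by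
    have hli : LinearIndependent K ![l, b] := by
      rw [LinearIndependent.pair_iff]
      intro s t hst
      have h3 := congrArg Ψ hst
      have h4 := congrArg Λ hst
      rw [map_add, map_smul, map_smul, C.Ψl, C.Ψb, smul_zero, zero_add, smul_eq_mul, mul_one, map_zero] at h3
      rw [map_add, map_smul, map_smul, hΛl, hΛb, smul_zero, add_zero, smul_eq_mul, mul_one, map_zero] at h4
      exact ⟨h4, h3⟩
    have hsp : Submodule.span K (Set.range ![l, b]) = ⊤ :=
      hli.span_eq_top_of_card_eq_finrank (by simp [hV])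
    intro w
    have hw : w ∈ Submodule.span K (Set.range ![l, b]) := by rw [hsp]; trivial
    rw [Matrix.range_cons, Matrix.range_cons, Matrix.range_empty, Set.union_empty, Set.singleton_union] at hw
    obtain ⟨x, y, hxy⟩ := Submodule.mem_span_pair.1 hw
    rw [← hxy, map_add, map_add, map_smul, map_smul, map_smul, map_smul, hΛl, hΛb, C.Ψl, C.Ψb]
    simp
  have hext : ∀ f g : V →ₗ[F] V, f l = g l → f (θ • l) = g (θ • l) → f b = g b → f (θ • b) = g (θ • b) →
      ∀ w, f w = g w := by
    intro f g e1 e2 e3 e4 w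
    obtain ⟨x, y, hxy⟩ := deg_two hr2 hθ (Λ w)
    obtain ⟨x', y', hxy'⟩ := deg_two hr2 hθ (Ψ w)
    have hw : w = x • l + y • (θ • l) + (x' • b + y' • (θ • b)) := by
      conv_lhs => rw [hcoord w, hxy, hxy']
      rw [add_smul, add_smul, mul_smul, mul_smul]
      simp only [algebraMap_smul]
    rw [hw]
    simp only [map_add, map_smul, e1, e2, e3, e4]
  have hextK : ∀ f g : V →ₗ[K] V, f l = g l → f b = g b → ∀ w, f w = g w := by
    intro f g e1 e3 w
    rw [hcoord w]
    simp only [map_add, map_smul, e1, e3]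
  -- functionals
  have h1θ : θ ∉ Submodule.span F {(1 : K)} := by
    intro h
    obtain ⟨f, hf⟩ := Submodule.mem_span_singleton.1 h
    exact hθ f (by rw [← hf, Algebra.algebraMap_eq_smul_one])
  have hθ1 : (1 : K) ∉ Submodule.span F {θ} := by
    intro h
    obtain ⟨f, hf⟩ := Submodule.mem_span_singleton.1 h
    rcases hF f with rfl | rfl
    · rw [zero_smul] at hf; exact zero_ne_one hf
    · rw [one_smul] at hf; exact hθ 1 (by rw [map_one, hf])
  obtain ⟨κ1, hκ1θ, hκ11⟩ := exists_dual _ h1θ
  obtain ⟨κ0, hκ01, hκ0θ⟩ := exists_dual _ hθ1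
  replace hκ11 := hκ11 1 (Submodule.mem_span_singleton_self 1)
  replace hκ0θ := hκ0θ θ (Submodule.mem_span_singleton_self θ)
  -- values of φ
  have hφl : φ l = 0 := C.φA l C.la C.lM
  have hφθ : φ (θ • l) = 1 := by
    rcases hF (φ (θ • l)) with h | h
    · exfalso
      apply C.kap_ne
      ext z
      obtain ⟨x, y, rfl⟩ := deg_two hr2 hθ z
      rw [kap_apply, add_smul, mul_smul, algebraMap_smul, algebraMap_smul, map_add, map_smul, map_smul, hφl, h]
      simp
    · exact h
  have htθl : ∀ c, T0 c (θ • l) = c := by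
    intro c
    rw [C.t_val (hT0z c) (smul_mem_Kl _ C.la), hφθ, one_smul, hT0v]
  have hM' : ∀ w ∈ M', w = 0 ∨ w = l ∨ w = b ∨ w = l + b := by
    intro w hw
    obtain ⟨f, -, hf⟩ := C.M'b w hw
    have hu : w - f • b ∈ M' := Submodule.sub_mem _ hw (Submodule.smul_mem _ _ C.bM)
    have hf' : w - f • b ∈ Kl F K l := by rw [← Kl_eq_of_mem C.l0 C.la]; exact hf
    obtain ⟨z, hz⟩ := mem_Kl.1 hf'
    obtain ⟨x, y, rfl⟩ := deg_two hr2 hθ z
    have h3 := C.φA _ hf hu
    rw [← hz, add_smul, mul_smul, algebraMap_smul, algebraMap_smul, map_add, map_smul, map_smul, hφl, hφθ,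
      smul_zero, zero_add, smul_eq_mul, mul_one] at h3
    rw [h3, map_zero, zero_mul, add_zero, algebraMap_smul] at hz
    rcases hF x with rfl | rfl <;> rcases hF f with rfl | rfl
    · left; simpa using hz.symm
    · right; right; left
      rw [zero_smul, one_smul, eq_comm, sub_eq_zero] at hz; exact hz
    · right; left; simpa using hz.symm
    · right; right; right
      rw [one_smul, one_smul, eq_sub_iff_add_eq] at hz; exact hz.symm
  have hΨθ : ∀ w ∈ M', Ψ w ≠ θ := by
    intro w hw h
    obtain ⟨f, hf, -⟩ := C.M'b w hw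
    exact hθ f (by rw [← hf, h])
  have hb0 : b ≠ 0 := by
    intro h; have := C.Ψb; rw [h, map_zero] at this; exact zero_ne_one this
  have hd0 : ∀ c, c ≠ 0 → T0 c (θ • b) ≠ 0 := by
    intro c hc h
    refine hΨθ _ (hT0k hV c _ hc h) ?_
    rw [map_smul, C.Ψb, smul_eq_mul, mul_one]
  have hd1 : ∀ c, c ≠ 0 → T0 c (θ • b) ≠ c := by
    intro c hc h
    refine hΨθ _ (hT0k hV c (θ • l + θ • b) hc ?_) ?_
    · rw [map_add, htθl, h, h2]
    · rw [map_add, map_smul, map_smul, C.Ψb, C.Ψl, smul_zero, zero_add, smul_eq_mul, mul_one]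
  have hlb0 : l + b ≠ 0 := by
    intro h
    have h3 := congrArg Ψ h
    rw [map_add, C.Ψl, C.Ψb, zero_add, map_zero] at h3
    exact one_ne_zero h3
  have hdl := hM' _ (hT0M l C.lM (θ • b))
  have hdb := hM' _ (hT0M b C.bM (θ • b))
  have hdsum : T0 (l + b) (θ • b) = T0 l (θ • b) + T0 b (θ • b) := by rw [hT0a]; rfl
  have e1 := hd0 l C.l0
  have e2 := hd1 l C.l0
  have e3 := hd0 b hb0
  have e4 := hd1 b hb0
  have e5 := hd0 (l + b) hlb0
  have e6 := hd1 (l + b) hlb0
  have hθθ : ∀ v : V, θ • θ • v = θ • v + v := fun v => by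
    rw [smul_smul, hθ2, add_smul, one_smul]
  rcases hdl with h | h | h | h
  · exact absurd h e1
  · exact absurd h e2
  · -- case 1
    have h' : T0 b (θ • b) = l + b := by
      rcases hdb with h' | h' | h' | h'
      · exact absurd h' e3
      · exact absurd (by rw [hdsum, h, h', add_comm]) e6
      · exact absurd h' e4
      · exact h'
    obtain ⟨gT, hgT, hgT'⟩ := hT0P b C.bM
    let fg : V →ₗ[K] V := Λ.smulRight (θ • l) + Ψ.smulRight (l + θ • b + b)
    let fgi : V →ₗ[K] V := Λ.smulRight (θ • l + l) + Ψ.smulRight (l + θ • b)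
    let fh : V →ₗ[K] V := Λ.smulRight (θ • l + l + b) + Ψ.smulRight (θ • b + b)
    let fhi : V →ₗ[K] V := Λ.smulRight (θ • l + θ • b + b) + Ψ.smulRight (θ • b)
    have hfgl : fg l = θ • l := by simp [fg, hΛl, C.Ψl]
    have hfgb : fg b = l + θ • b + b := by simp [fg, hΛb, C.Ψb]
    have hfgil : fgi l = θ • l + l := by simp [fgi, hΛl, C.Ψl]
    have hfgib : fgi b = l + θ • b := by simp [fgi, hΛb, C.Ψb]
    have hfhl : fh l = θ • l + l + b := by simp [fh, hΛl, C.Ψl]
    have hfhb : fh b = θ • b + b := by simp [fh, hΛb, C.Ψb]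
    have hfhil : fhi l = θ • l + θ • b + b := by simp [fhi, hΛl, C.Ψl]
    have hfhib : fhi b = θ • b := by simp [fhi, hΛb, C.Ψb]
    obtain ⟨g, hg, hg'⟩ := H3 fg fgi
      (hextK (fgi ∘ₗ fg) LinearMap.id
        (by simp only [LinearMap.comp_apply, LinearMap.id_apply, hfgl, hfgil, map_smul, smul_add, hθθ]; (match_scalars <;> first | ring1 | (ring_nf; simp only [h20, h30, h40, h50, h60, h70, h80, h90, hA0, hE0, hG0, mul_zero, mul_one, add_zero, zero_add])))
        (by simp only [LinearMap.comp_apply, LinearMap.id_apply, hfgb, hfgil, hfgib, map_add, map_smul, smul_add, hθθ]; (match_scalars <;> first | ring1 | (ring_nf; simp only [h20, h30, h40, h50, h60, h70, h80, h90, hA0, hE0, hG0, mul_zero, mul_one, add_zero, zero_add]))))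
      (hextK (fg ∘ₗ fgi) LinearMap.id
        (by simp only [LinearMap.comp_apply, LinearMap.id_apply, hfgl, hfgil, map_add, map_smul, smul_add, hθθ]; (match_scalars <;> first | ring1 | (ring_nf; simp only [h20, h30, h40, h50, h60, h70, h80, h90, hA0, hE0, hG0, mul_zero, mul_one, add_zero, zero_add])))
        (by simp only [LinearMap.comp_apply, LinearMap.id_apply, hfgl, hfgb, hfgib, map_add, map_smul, smul_add, hθθ]; (match_scalars <;> first | ring1 | (ring_nf; simp only [h20, h30, h40, h50, h60, h70, h80, h90, hA0, hE0, hG0, mul_zero, mul_one, add_zero, zero_add]))))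
    obtain ⟨h0, hh, hh'⟩ := H3 fh fhi
      (hextK (fhi ∘ₗ fh) LinearMap.id
        (by simp only [LinearMap.comp_apply, LinearMap.id_apply, hfhl, hfhil, hfhib, map_add, map_smul, smul_add, hθθ]; (match_scalars <;> first | ring1 | (ring_nf; simp only [h20, h30, h40, h50, h60, h70, h80, h90, hA0, hE0, hG0, mul_zero, mul_one, add_zero, zero_add])))
        (by simp only [LinearMap.comp_apply, LinearMap.id_apply, hfhb, hfhib, map_add, map_smul, smul_add, hθθ]; (match_scalars <;> first | ring1 | (ring_nf; simp only [h20, h30, h40, h50, h60, h70, h80, h90, hA0, hE0, hG0, mul_zero, mul_one, add_zero, zero_add]))))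
      (hextK (fh ∘ₗ fhi) LinearMap.id
        (by simp only [LinearMap.comp_apply, LinearMap.id_apply, hfhl, hfhil, hfhb, map_add, map_smul, smul_add, hθθ]; (match_scalars <;> first | ring1 | (ring_nf; simp only [h20, h30, h40, h50, h60, h70, h80, h90, hA0, hE0, hG0, mul_zero, mul_one, add_zero, zero_add])))
        (by simp only [LinearMap.comp_apply, LinearMap.id_apply, hfhb, hfhib, map_add, map_smul, smul_add, hθθ]; (match_scalars <;> first | ring1 | (ring_nf; simp only [h20, h30, h40, h50, h60, h70, h80, h90, hA0, hE0, hG0, mul_zero, mul_one, add_zero, zero_add]))))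
    refine ⟨κ1, Λ, θ • b, ?_, ?_, ?_, ?_, gT * g * gT * h0, X.mul_mem (X.mul_mem (X.mul_mem hgT hg) hgT) hh, ?_⟩
    · intro h; rw [h] at hκ1θ; simp at hκ1θ
    · intro h; rw [h] at hΛl; simp at hΛl
    · intro h
      rcases smul_eq_zero.1 h with h | h
      · exact hθ 0 (by rw [map_zero, h])
      · exact hb0 h
    · rw [map_smul, hΛb, smul_zero]
    · have t1 : T0 b l = 0 := hT0z b l C.lM
      have t2 : T0 b b = 0 := hT0z b b C.bM
      have t3 : T0 b (θ • l) = b := htθl b
      refine hext ((gT * g * gT * h0 : V ≃ₗ[F] V) : V →ₗ[F] V)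
        (LinearMap.id + et (Algebra.linearMap F K ∘ₗ κ1) Λ (θ • b)) ?_ ?_ ?_ ?_ <;>
      simp only [LinearEquiv.coe_coe, LinearEquiv.mul_apply, LinearMap.add_apply, LinearMap.id_apply, et_apply,
        hg', hh', hgT', hfgl, hfgb, hfhl, hfhb, map_add, map_smul, smul_add, hθθ, t1, t2, t3, h', hΛl, hΛb,
        LinearMap.comp_apply, Algebra.linearMap_apply, hκ11, hκ1θ, smul_eq_mul, mul_one, mul_zero, map_zero, map_one,
        zero_smul, one_smul, add_zero]
      · (match_scalars <;> first | ring1 | (ring_nf; simp only [h20, h30, h40, h50, h60, h70, h80, h90, hA0, hE0, hG0, mul_zero, mul_one, add_zero, zero_add]))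
      · (match_scalars <;> first | ring1 | (ring_nf; simp only [h20, h30, h40, h50, h60, h70, h80, h90, hA0, hE0, hG0, mul_zero, mul_one, add_zero, zero_add]))
      · (match_scalars <;> first | ring1 | (ring_nf; simp only [h20, h30, h40, h50, h60, h70, h80, h90, hA0, hE0, hG0, mul_zero, mul_one, add_zero, zero_add]))
      · (match_scalars <;> first | ring1 | (ring_nf; simp only [h20, h30, h40, h50, h60, h70, h80, h90, hA0, hE0, hG0, mul_zero, mul_one, add_zero, zero_add]))
  · -- case 2
    have h' : T0 b (θ • b) = l := by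
      rcases hdb with h' | h' | h' | h'
      · exact absurd h' e3
      · exact h'
      · exact absurd h' e4
      · exact absurd (by rw [hdsum, h, h', h2]) e5
    obtain ⟨gT, hgT, hgT'⟩ := hT0P l C.lM
    let fg : V →ₗ[K] V := Λ.smulRight l + Ψ.smulRight (θ • b)
    let fgi : V →ₗ[K] V := Λ.smulRight l + Ψ.smulRight (θ • b + b)
    have hfgl : fg l = l := by simp [fg, hΛl, C.Ψl]
    have hfgb : fg b = θ • b := by simp [fg, hΛb, C.Ψb]
    have hfgil : fgi l = l := by simp [fgi, hΛl, C.Ψl]
    have hfgib : fgi b = θ • b + b := by simp [fgi, hΛb, C.Ψb]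
    obtain ⟨g, hg, hg'⟩ := H3 fg fgi
      (hextK (fgi ∘ₗ fg) LinearMap.id
        (by simp only [LinearMap.comp_apply, LinearMap.id_apply, hfgl, hfgil])
        (by simp only [LinearMap.comp_apply, LinearMap.id_apply, hfgb, hfgib, map_smul, smul_add, hθθ]; (match_scalars <;> first | ring1 | (ring_nf; simp only [h20, h30, h40, h50, h60, h70, h80, h90, hA0, hE0, hG0, mul_zero, mul_one, add_zero, zero_add]))))
      (hextK (fg ∘ₗ fgi) LinearMap.id
        (by simp only [LinearMap.comp_apply, LinearMap.id_apply, hfgl, hfgil])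
        (by simp only [LinearMap.comp_apply, LinearMap.id_apply, hfgb, hfgib, map_add, map_smul, smul_add, hθθ]; (match_scalars <;> first | ring1 | (ring_nf; simp only [h20, h30, h40, h50, h60, h70, h80, h90, hA0, hE0, hG0, mul_zero, mul_one, add_zero, zero_add]))))
    refine ⟨κ0, Ψ, l, ?_, C.Ψne, C.l0, C.Ψl, gT * g * gT * g, X.mul_mem (X.mul_mem (X.mul_mem hgT hg) hgT) hg, ?_⟩
    · intro h; rw [h] at hκ01; simp at hκ01
    · have t1 : T0 l l = 0 := hT0z l l C.lM
      have t2 : T0 l b = 0 := hT0z l b C.bM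
      have t3 : T0 l (θ • l) = l := htθl l
      refine hext ((gT * g * gT * g : V ≃ₗ[F] V) : V →ₗ[F] V)
        (LinearMap.id + et (Algebra.linearMap F K ∘ₗ κ0) Ψ l) ?_ ?_ ?_ ?_ <;>
      simp only [LinearEquiv.coe_coe, LinearEquiv.mul_apply, LinearMap.add_apply, LinearMap.id_apply, et_apply,
        hg', hgT', hfgl, hfgb, map_add, map_smul, smul_add, hθθ, t1, t2, t3, h, C.Ψl, C.Ψb,
        LinearMap.comp_apply, Algebra.linearMap_apply, hκ01, hκ0θ, smul_eq_mul, mul_one, mul_zero, map_zero, map_one,
        zero_smul, one_smul, add_zero]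
      · (match_scalars <;> first | ring1 | (ring_nf; simp only [h20, h30, h40, h50, h60, h70, h80, h90, hA0, hE0, hG0, mul_zero, mul_one, add_zero, zero_add]))
      · (match_scalars <;> first | ring1 | (ring_nf; simp only [h20, h30, h40, h50, h60, h70, h80, h90, hA0, hE0, hG0, mul_zero, mul_one, add_zero, zero_add]))
      · (match_scalars <;> first | ring1 | (ring_nf; simp only [h20, h30, h40, h50, h60, h70, h80, h90, hA0, hE0, hG0, mul_zero, mul_one, add_zero, zero_add]))

end

end CfsgLib.Ext19
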