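import Cfsg.Agent.EqBase
import Cfsg.Agent.LibExtD19

set_option autoImplicit false
set_option maxHeartbeats 400000

/-! Overgroups of SL over an extension field: from one transvection to all of them. -/

namespace CfsgLib.Ext19
open Module

section Norm
variable {F K : Type*} [Field F] [Field K] [Algebra F K] [Finite F] [Finite K]

theorem arith_aux {x y Q : ℕ} (hx : 1 ≤ x) (hy : 2 ≤ y) (hxQ : x * x ≤ Q) (hyQ : y * y ≤ Q)
    (h : Q - 1 ≤ (x - 1) * (y - 1)) : False := by
  obtain ⟨x, rfl⟩ : ∃ t, x = t + 1 := ⟨x - 1, by omega⟩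
  obtain ⟨y, rfl⟩ : ∃ t, y = t + 1 := ⟨y - 1, by omega⟩
  simp only [Nat.add_sub_cancel] at h
  have h1 : Q ≤ x * y + 1 := by omega
  have h2 : 2 * (x * y) ≤ x * x + y * y := by nlinarith [sq_nonneg ((x : ℤ) - y)]
  nlinarith

/-- additive subgroups stable under the elements of norm one -/
theorem norm_span (h2 : 2 ≤ finrank F K) (S : AddSubgroup K)
    (hS : ∀ ν : K, Algebra.norm F ν = 1 → ∀ s ∈ S, ν * s ∈ S) {s0 : K} (hs0 : s0 ∈ S) (hs00 : s0 ≠ 0) (z : K) :
    z ∈ S := by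
  classical
  haveI : Module.Finite F K := Module.Finite.of_finite
  let R : Subring K :=
    { carrier := {z | ∀ s ∈ S, z * s ∈ S}
      mul_mem' := by
        intro x y hx hy s hs
        rw [mul_assoc]; exact hx _ (hy _ hs)
      one_mem' := by intro s hs; rwa [one_mul]
      add_mem' := by
        intro x y hx hy s hs
        rw [add_mul]; exact S.add_mem (hx _ hs) (hy _ hs)
      zero_mem' := by intro s hs; rw [zero_mul]; exact S.zero_mem
      neg_mem' := by
        intro x hx s hs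
        rw [neg_mul]; exact S.neg_mem (hx _ hs) }
  suffices hR : R = ⊤ by
    have : z * s0⁻¹ ∈ R := by rw [hR]; trivial
    have h3 := this s0 hs0
    rwa [mul_assoc, inv_mul_cancel₀ hs00, mul_one] at h3
  by_contra hR
  obtain ⟨w, -, hw⟩ := SetLike.exists_of_lt (lt_top_iff_ne_top.2 hR)
  cases nonempty_fintype K
  have hinv : ∀ x ∈ R, x⁻¹ ∈ R := by
    intro x hx
    by_cases hx0 : x = 0
    · rw [hx0, inv_zero]; exact R.zero_mem
    · have h3 : x⁻¹ = x ^ (Fintype.card K - 2) := by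
        have h4 := FiniteField.pow_card_sub_one_eq_one x hx0
        have h5 : 2 ≤ Fintype.card K := Fintype.one_lt_card
        have h6 : Fintype.card K - 1 = (Fintype.card K - 2) + 1 := by omega
        rw [h6, pow_succ] at h4
        exact inv_eq_of_mul_eq_one_left h4
      rw [h3]; exact R.pow_mem hx _
  -- |R|^2 ≤ |K|
  have hRR : Nat.card R * Nat.card R ≤ Nat.card K := by
    rw [← Nat.card_prod]
    refine Nat.card_le_card_of_injective (fun p : R × R => (p.1 : K) + p.2 * w) ?_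
    rintro ⟨⟨a, ha⟩, ⟨b, hb⟩⟩ ⟨⟨c, hc⟩, ⟨d, hd⟩⟩ h
    simp only at h
    have hbd : b = d := by
      by_contra hbd
      apply hw
      have h3 : b - d ≠ 0 := sub_ne_zero.2 hbd
      have h4 : w = (c - a) * (b - d)⁻¹ := by
        field_simp
        linear_combination h
      rw [h4]
      exact R.mul_mem (R.sub_mem hc ha) (hinv _ (R.sub_mem hb hd))
    subst hbd
    have hac : a = c := by simpa using h
    subst hac
    rfl
  -- norm one elements
  let N : Kˣ →* Fˣ := Units.map (Algebra.norm F : K →* F)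
  have h3 : Nat.card Kˣ = Nat.card N.ker * Nat.card N.range := by
    rw [← Subgroup.card_mul_index N.ker, Subgroup.index_ker]
  have h4 : Nat.card N.ker ≤ Nat.card R - 1 := by
    have h5 : Nat.card R = Nat.card {x : R // x ≠ 0} + 1 := by
      rw [show (1 : ℕ) = Nat.card {x : R // ¬ x ≠ 0} from ?_]
      · rw [← Nat.card_sum]
        exact Nat.card_congr (Equiv.sumCompl _).symm
      · simp
    rw [h5, Nat.add_sub_cancel]
    refine Nat.card_le_card_of_injective (fun u : N.ker => (⟨⟨((u : Kˣ) : K), ?_⟩, ?_⟩ : {x : R // x ≠ 0})) ?_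
    · intro s hs
      refine hS _ ?_ s hs
      have := u.2
      rw [MonoidHom.mem_ker] at this
      have h6 := congrArg Units.val this
      simpa [N] using h6
    · intro h
      have := congrArg Subtype.val h
      exact (u : Kˣ).ne_zero this
    · intro u v huv
      have : ((u : Kˣ) : K) = ((v : Kˣ) : K) := by
        have := congrArg (fun x : {x : R // x ≠ 0} => ((x : R) : K)) huv
        simpa using this
      exact Subtype.ext (Units.ext this)
  have h5 : Nat.card N.range ≤ Nat.card F - 1 := by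
    rw [← Nat.card_units]
    exact Subgroup.card_le_card_group _
  have h6 : Nat.card F * Nat.card F ≤ Nat.card K := by
    have h7 : Nat.card K = Nat.card F ^ finrank F K := by
      rw [Module.natCard_eq_pow_finrank (K := F) (V := K)]
    rw [h7, ← pow_two]
    exact Nat.pow_le_pow_right Nat.card_pos h2
  have h7 : Nat.card K - 1 ≤ (Nat.card R - 1) * (Nat.card F - 1) := by
    rw [← Nat.card_units, h3]
    exact Nat.mul_le_mul h4 h5
  exact arith_aux Nat.card_pos Finite.one_lt_card hRR h6 h7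

end Norm

section
variable {F K V : Type*} [Field F] [Field K] [Algebra F K] [AddCommGroup V] [Module F V] [Module K V]
  [IsScalarTower F K V]
variable {X : Subgroup (V ≃ₗ[F] V)}

/-- all transvections with functional through `Ψ` and centre `l` -/
def Gp (X : Subgroup (V ≃ₗ[F] V)) (Ψ : V →ₗ[K] K) (l : V) : Prop :=
  ∀ κ : K →ₗ[F] F, P X (et (Algebra.linearMap F K ∘ₗ κ) Ψ l)

theorem Gp.smul {Ψ : V →ₗ[K] K} {l : V} (h : Gp X Ψ l) (z : K) : Gp X (z • Ψ) l := by
  intro κ
  refine (h (κ ∘ₗ LinearMap.mulLeft F z)).congr fun w => ?_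
  simp only [et_apply, LinearMap.comp_apply, LinearMap.mulLeft_apply, LinearMap.smul_apply, smul_eq_mul]

theorem Gp.move {Ψ Θ : V →ₗ[K] K} {l c : V} (h : Gp X Ψ l)
    (H1 : ∀ (Ψ : V →ₗ[K] K) (a : V), Ψ a = 0 → P X (et LinearMap.id Ψ a)) (hΘ : Θ c = 0) :
    Gp X (Ψ - Ψ c • Θ) (l + Θ l • c) := by
  intro κ
  obtain ⟨y, hy, hy'⟩ := H1 Θ c hΘ
  refine ((h κ).conj hy).congr fun w => ?_
  have h5 : y (y⁻¹ w) = w := by rw [← LinearEquiv.mul_apply, mul_inv_cancel]; rfl
  have h6 : Ψ (y⁻¹ w) = Ψ w - Ψ c * Θ w := by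
    have h7 : Θ (y⁻¹ w) = Θ w := by
      conv_rhs => rw [← h5, hy']
      simp only [et_apply, map_add, map_smul, hΘ, smul_zero, add_zero]
    have h8 : Ψ w = Ψ (y⁻¹ w) + Θ w * Ψ c := by
      conv_lhs => rw [← h5, hy']
      simp only [et_apply, map_add, map_smul, h7, smul_eq_mul, LinearMap.id_apply]
    rw [h8]; ring
  simp only [LinearMap.comp_apply, LinearEquiv.coe_coe, et_apply, hy', map_smul, h6, LinearMap.id_apply,
    LinearMap.sub_apply, LinearMap.smul_apply, smul_eq_mul, Algebra.linearMap_apply, algebraMap_smul, smul_add]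

variable [FiniteDimensional F K]

theorem Gp.of_hasTv [Finite F] [Finite K] (h2 : 2 ≤ finrank F K)
    (H2 : ∀ (Θ : V →ₗ[K] K) (c : V) (ν : K), Θ c = 1 → Algebra.norm F ν = 1 →
      P X (et (LinearMap.mulLeft F (ν - 1)) Θ c))
    (h : HasTv K X) : ∃ (Ψ : V →ₗ[K] K) (l : V), Ψ ≠ 0 ∧ l ≠ 0 ∧ Ψ l = 0 ∧ Gp X Ψ l := by
  obtain ⟨κ, Ψ, l, hκ, hΨ, hl, hΨl, hP⟩ := h
  refine ⟨Ψ, l, hΨ, hl, hΨl, ?_⟩
  let S : AddSubgroup K :=
    { carrier := {k | P X (et (Algebra.linearMap F K ∘ₗ κ ∘ₗ LinearMap.mulLeft F k) Ψ l)}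
      add_mem' := by
        intro x y hx hy
        refine (Q_add hΨl hx hy).congr fun w => ?_
        simp only [et_apply, LinearMap.add_apply, LinearMap.comp_apply, LinearMap.mulLeft_apply, add_mul, map_add]
      zero_mem' := by
        refine (Q_zero (Ψ := Ψ) (l := l)).congr fun w => ?_
        simp
      neg_mem' := by
        intro x hx
        refine (Q_neg hΨl hx).congr fun w => ?_
        simp only [et_apply, LinearMap.neg_apply, LinearMap.comp_apply, LinearMap.mulLeft_apply, neg_mul, map_neg] }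
  have hS : ∀ k, k ∈ S := by
    refine norm_span h2 S ?_ (s0 := 1) ?_ one_ne_zero
    · intro ν hν s hs
      refine (Q_right H2 hΨl hΨ hν hs).congr fun w => ?_
      simp only [et_apply, LinearMap.comp_apply, LinearMap.mulLeft_apply]
      rw [← mul_assoc, mul_comm s ν]
    · refine hP.congr fun w => ?_
      simp only [et_apply, LinearMap.comp_apply, LinearMap.mulLeft_apply, one_mul]
  intro κ'
  obtain ⟨k, hk⟩ := exists_repr hκ κ'
  refine (hS k : P X _).congr fun w => ?_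
  simp only [et_apply, LinearMap.comp_apply, LinearMap.mulLeft_apply, hk]

theorem exists_notMem_Kl [FiniteDimensional F V] (hV : 2 ≤ finrank K V) (l : V) : ∃ v : V, v ∉ Submodule.span K {l} := by
  haveI : FiniteDimensional K V := FiniteDimensional.right F K V
  by_contra hcon
  push Not at hcon
  have h1 : Submodule.span K {l} = ⊤ := by ext v; simp only [hcon v, Submodule.mem_top]
  have h2 := finrank_span_le_card (R := K) ({l} : Set V)
  rw [h1, finrank_top, Set.toFinset_singleton, Finset.card_singleton] at h2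
  omega

theorem Gp.move_vec {Ψ : V →ₗ[K] K} {l l' : V} (h : Gp X Ψ l) (hl : l ≠ 0) (hl' : l' ∉ Submodule.span K {l})
    (H1 : ∀ (Ψ : V →ₗ[K] K) (a : V), Ψ a = 0 → P X (et LinearMap.id Ψ a)) (hΨl : Ψ l = 0) (hΨ : Ψ ≠ 0) :
    ∃ Ψ' : V →ₗ[K] K, Ψ' ≠ 0 ∧ Ψ' l' = 0 ∧ Gp X Ψ' l' := by
  have h1 : l ∉ Submodule.span K {l' - l} := by
    intro h
    obtain ⟨z, hz⟩ := Submodule.mem_span_singleton.1 h
    have hz0 : z ≠ 0 := by
      rintro rfl
      rw [zero_smul] at hz
      exact hl hz.symm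
    apply hl'
    rw [Submodule.mem_span_singleton]
    refine ⟨z⁻¹ + 1, ?_⟩
    have : l' = z⁻¹ • (z • (l' - l)) + l := by
      rw [smul_smul, inv_mul_cancel₀ hz0, one_smul, sub_add_cancel]
    rw [this, hz, add_smul, one_smul]
  obtain ⟨Θ, hΘl, hΘ⟩ := exists_dual _ h1
  have hΘ0 := hΘ _ (Submodule.mem_span_singleton_self _)
  have h3 := h.move H1 hΘ0
  rw [hΘl, one_smul, add_sub_cancel] at h3
  have hΘl' : Θ l' = 1 := by
    rw [map_sub, hΘl, sub_eq_zero] at hΘ0; exact hΘ0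
  refine ⟨_, ?_, ?_, h3⟩
  · intro h4
    have h5 := LinearMap.congr_fun h4 l
    rw [LinearMap.sub_apply, LinearMap.smul_apply, hΘl, hΨl, map_sub, hΨl, sub_zero, zero_sub, smul_eq_mul, mul_one,
      LinearMap.zero_apply, neg_eq_zero] at h5
    rw [map_sub, hΨl, h5] at h4
    simp at h4
    exact hΨ h4
  · rw [LinearMap.sub_apply, LinearMap.smul_apply, hΘl', map_sub, hΨl, sub_zero, smul_eq_mul, mul_one, sub_self]

theorem Gp.move_fun {Ψ Ψ' : V →ₗ[K] K} {l : V} (h : Gp X Ψ l)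
    (H1 : ∀ (Ψ : V →ₗ[K] K) (a : V), Ψ a = 0 → P X (et LinearMap.id Ψ a)) (hΨl : Ψ l = 0) (hΨ : Ψ ≠ 0)
    (hΨl' : Ψ' l = 0) (hΨ' : Ψ' ≠ 0) : Gp X Ψ' l := by
  have key : ∀ Φ1 Φ2 : V →ₗ[K] K, Φ1 ≠ 0 → (∀ z : K, Φ2 ≠ z • Φ1) → ∃ u, Φ1 u = 0 ∧ Φ2 u = 1 := by
    intro Φ1 Φ2 h1 h2
    by_contra hcon
    push Not at hcon
    have h3 : ∀ u, Φ1 u = 0 → Φ2 u = 0 := by
      intro u hu
      by_contra hu2
      refine hcon ((Φ2 u)⁻¹ • u) ?_ ?_
      · rw [map_smul, hu, smul_zero]
      · rw [map_smul, smul_eq_mul, inv_mul_cancel₀ hu2]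
    obtain ⟨v, hv⟩ : ∃ v, Φ1 v ≠ 0 := by
      by_contra hcon
      push Not at hcon
      exact h1 (LinearMap.ext hcon)
    apply h2 (Φ2 v * (Φ1 v)⁻¹)
    ext w
    have h4 := h3 (w - (Φ1 w * (Φ1 v)⁻¹) • v) (by
      rw [map_sub, map_smul, smul_eq_mul, mul_assoc, inv_mul_cancel₀ hv, mul_one, sub_self])
    rw [map_sub, map_smul, smul_eq_mul, sub_eq_zero] at h4
    rw [h4, LinearMap.smul_apply, smul_eq_mul]
    ring
  by_cases hz : ∃ z : K, Ψ' = z • Ψ
  · obtain ⟨z, rfl⟩ := hz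
    exact h.smul z
  · push Not at hz
    obtain ⟨u, hu1, hu2⟩ := key Ψ Ψ' hΨ hz
    obtain ⟨v, hv1, hv2⟩ := key Ψ' Ψ hΨ' (by
      intro z h1
      have hz0 : z ≠ 0 := by
        rintro rfl
        rw [zero_smul] at h1
        exact hΨ h1
      apply hz z⁻¹
      rw [h1, smul_smul, inv_mul_cancel₀ hz0, one_smul])
    have h3 := h.move H1 (Θ := Ψ - Ψ') (c := u + v) (by
      rw [LinearMap.sub_apply, map_add, map_add, hu1, hu2, hv1, hv2]; ring)
    rw [LinearMap.sub_apply, hΨl, hΨl', sub_zero, zero_smul, add_zero, map_add, hu1, hv2, zero_add, one_smul,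
      sub_sub_cancel] at h3
    exact h3

/-- all transvections over the small field whose functional kills the `K`-line of the centre -/
theorem Gp.all [FiniteDimensional F V] (hV : 2 ≤ finrank K V)
    (H1 : ∀ (Ψ : V →ₗ[K] K) (a : V), Ψ a = 0 → P X (et LinearMap.id Ψ a))
    (h : ∃ (Ψ : V →ₗ[K] K) (l : V), Ψ ≠ 0 ∧ l ≠ 0 ∧ Ψ l = 0 ∧ Gp X Ψ l) {Ψ' : V →ₗ[K] K} {l' : V}
    (h' : Ψ' l' = 0) : Gp X Ψ' l' := by
  obtain ⟨Ψ, l, hΨ, hl, hΨl, hG⟩ := h
  by_cases hl' : l' = 0
  · subst hl'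
    intro κ
    exact P.zero.congr fun w => by simp
  by_cases hΨ' : Ψ' = 0
  · subst hΨ'
    intro κ
    exact P.zero.congr fun w => by simp
  -- move the vector
  obtain ⟨Ψ1, h1, h2, h3⟩ : ∃ Ψ1 : V →ₗ[K] K, Ψ1 ≠ 0 ∧ Ψ1 l' = 0 ∧ Gp X Ψ1 l' := by
    by_cases hin : l' ∈ Submodule.span K {l}
    · obtain ⟨v, hv⟩ := exists_notMem_Kl (F := F) hV l
      obtain ⟨Ψ2, e1, e2, e3⟩ := hG.move_vec hl hv H1 hΨl hΨ
      have hv0 : v ≠ 0 := by rintro rfl; exact hv (Submodule.zero_mem _)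
      have hl'v : l' ∉ Submodule.span K {v} := by
        intro h
        obtain ⟨z, hz⟩ := Submodule.mem_span_singleton.1 h
        have hz0 : z ≠ 0 := by rintro rfl; rw [zero_smul] at hz; exact hl' hz.symm
        apply hv
        have : v = z⁻¹ • l' := by rw [← hz, smul_smul, inv_mul_cancel₀ hz0, one_smul]
        rw [this]
        exact Submodule.smul_mem _ _ hin
      exact e3.move_vec hv0 hl'v H1 e2 e1
    · exact hG.move_vec hl hin H1 hΨl hΨ
  exact h3.move_fun H1 h2 h1 h' hΨ'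

/-- every functional over the small field comes from one over the big field -/
theorem exists_big {κ : K →ₗ[F] F} (hκ : κ ≠ 0) (ψ : V →ₗ[F] F) : ∃ Ψ : V →ₗ[K] K, ∀ w, ψ w = κ (Ψ w) := by
  have h1 : ∀ w : V, ∃ k : K, ∀ z : K, ψ (z • w) = κ (k * z) := by
    intro w
    obtain ⟨k, hk⟩ := exists_repr hκ (kap ψ w)
    exact ⟨k, fun z => by rw [← hk]; rfl⟩
  choose f hf using h1
  have huniq : ∀ k k' : K, (∀ z, κ (k * z) = κ (k' * z)) → k = k' := by
    intro k k' h
    by_contra hne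
    have hne' : k - k' ≠ 0 := sub_ne_zero.2 hne
    apply hκ
    ext z
    have h2 := h ((k - k')⁻¹ * z)
    rw [← sub_eq_zero, ← map_sub, ← sub_mul, ← mul_assoc, mul_inv_cancel₀ hne', one_mul] at h2
    simpa using h2
  refine ⟨{ toFun := f, map_add' := ?_, map_smul' := ?_ }, ?_⟩
  · intro x y
    apply huniq
    intro z
    rw [← hf, smul_add, map_add, hf, hf, add_mul, map_add]
  · intro c x
    apply huniq
    intro z
    rw [RingHom.id_apply, ← hf, smul_smul, hf, smul_eq_mul]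
    congr 1; ring
  · intro w
    have h2 := hf w 1
    rw [one_smul, mul_one] at h2
    exact h2

/-- all transvections over the small field -/
theorem all_tv [Finite F] [Finite K] [FiniteDimensional F V] (h2 : 2 ≤ finrank F K) (hV : 2 ≤ finrank K V)
    (H1 : ∀ (Ψ : V →ₗ[K] K) (a : V), Ψ a = 0 → P X (et LinearMap.id Ψ a))
    (H2 : ∀ (Θ : V →ₗ[K] K) (c : V) (ν : K), Θ c = 1 → Algebra.norm F ν = 1 →
      P X (et (LinearMap.mulLeft F (ν - 1)) Θ c))
    (h : HasTv K X) (φ : V →ₗ[F] F) (a : V) (ha : φ a = 0) : P X (φ.smulRight a) := by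
  have hG := Gp.of_hasTv h2 H2 h
  obtain ⟨κ, -, -, hκ, -⟩ := h
  have hline : ∀ (ψ : V →ₗ[F] F) (c : V), (∀ z : K, ψ (z • c) = 0) → P X (ψ.smulRight c) := by
    intro ψ c hψ
    obtain ⟨Ψ, hΨ⟩ := exists_big hκ ψ
    have hΨc : Ψ c = 0 := by
      by_contra hne
      apply hκ
      ext z
      have := hψ (z * (Ψ c)⁻¹)
      rw [hΨ, map_smul, smul_eq_mul, mul_assoc, inv_mul_cancel₀ hne, mul_one] at this
      simpa using this
    refine (Gp.all hV H1 hG hΨc κ).congr fun w => ?_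
    rw [et_apply, LinearMap.smulRight_apply, LinearMap.comp_apply, Algebra.linearMap_apply, algebraMap_smul, ← hΨ]
  by_cases hcase : ∀ z : K, φ (z • a) = 0
  · exact hline φ a hcase
  · push Not at hcase
    obtain ⟨z0, hz0⟩ := hcase
    have ha0 : a ≠ 0 := by rintro rfl; rw [smul_zero, map_zero] at hz0; exact hz0 rfl
    obtain ⟨Φ, hΦ⟩ := exists_big hκ φ
    have hΦa : Φ a ≠ 0 := by
      intro h; rw [hΦ, map_smul, h, smul_zero, map_zero] at hz0; exact hz0 rfl
    obtain ⟨v, hv⟩ := exists_notMem_Kl (F := F) hV a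
    set b : V := v - (Φ v * (Φ a)⁻¹) • a with hb
    have hΦb : Φ b = 0 := by
      rw [hb, map_sub, map_smul, smul_eq_mul, mul_assoc, inv_mul_cancel₀ hΦa, mul_one, sub_self]
    have hba : b ∉ Kl F K a := by
      intro h
      apply hv
      have h3 : b ∈ Submodule.span K {a} := h
      have h4 : v = b + (Φ v * (Φ a)⁻¹) • a := by rw [hb, sub_add_cancel]
      rw [h4]
      exact Submodule.add_mem _ h3 (Submodule.smul_mem _ _ (Submodule.mem_span_singleton_self a))
    obtain ⟨ψ, hψb, hψ⟩ := exists_dual (K := F) _ hba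
    have e1 : P X (ψ.smulRight a) := hline ψ a (fun z => hψ _ (mem_Kl.2 ⟨z, rfl⟩))
    have e2 : P X (φ.smulRight b) := hline φ b (fun z => by rw [hΦ, map_smul, hΦb, smul_zero, map_zero])
    have hφb : φ b = 0 := by rw [hΦ, hΦb, map_zero]
    have hψa : ψ a = 0 := hψ a (self_mem_Kl a)
    refine (P.comm e1 e2 ?_ ?_ ?_).congr ?_
    · intro w; simp only [LinearMap.smulRight_apply, map_smul, hψa, smul_zero, zero_smul]
    · intro w; simp only [LinearMap.smulRight_apply, map_smul, hφb, smul_zero, zero_smul]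
    · intro w; simp only [LinearMap.smulRight_apply, map_smul, ha, smul_zero, zero_smul]
    · intro w; simp only [LinearMap.comp_apply, LinearMap.smulRight_apply, map_smul, hψb, smul_eq_mul, mul_one, one_smul]

end

end CfsgLib.Ext19
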