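import Cfsg.Agent.EqBase
import Cfsg.Agent.LibExtE19
import Cfsg.Agent.LibMaxTv29

set_option autoImplicit false
set_option maxHeartbeats 400000

/-! Overgroups of SL over an extension field: main abstract theorem and its matrix form. -/

namespace CfsgLib.Ext19
open Module

section
variable {F K V : Type*} [Field F] [Field K] [Algebra F K] [AddCommGroup V] [Module F V] [Module K V]
  [IsScalarTower F K V]
variable {X : Subgroup (V ≃ₗ[F] V)}

/-- `X` contains the `K`-linear automorphisms of determinant one over the small field -/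
def HX (K : Type*) {F V : Type*} [Field F] [Field K] [Algebra F K] [AddCommGroup V] [Module F V] [Module K V]
    [IsScalarTower F K V] (X : Subgroup (V ≃ₗ[F] V)) : Prop :=
  ∀ f g : V →ₗ[K] V, (∀ w, g (f w) = w) → (∀ w, f (g w) = w) → Algebra.norm F (LinearMap.det f) = 1 →
    ∃ y ∈ X, ∀ w, y w = f w

variable [FiniteDimensional F K] [FiniteDimensional F V]

theorem HX.h1 (h : HX K X) (Ψ : V →ₗ[K] K) (a : V) (ha : Ψ a = 0) : P X (et LinearMap.id Ψ a) := by
  haveI : FiniteDimensional K V := FiniteDimensional.right F K V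
  obtain ⟨y, hy, hy'⟩ := h (LinearMap.transvection Ψ a) (LinearMap.transvection Ψ (-a)) (by
    intro w
    rw [LinearMap.transvection.apply, LinearMap.transvection.apply, map_add, map_smul, ha]
    simp) (by
    intro w
    rw [LinearMap.transvection.apply, LinearMap.transvection.apply, map_add, map_smul, map_neg, ha]
    simp) (by
    rw [LinearMap.transvection.det, ha, add_zero, map_one])
  exact ⟨y, hy, fun w => by rw [hy', LinearMap.transvection.apply]; rfl⟩

theorem dil_inv {Θ : V →ₗ[K] K} {c : V} {ν μ : K} (hΘ : Θ c = 1) (h : μ * ν = 1) (w : V) :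
    LinearMap.transvection Θ ((μ - 1) • c) (LinearMap.transvection Θ ((ν - 1) • c) w) = w := by
  rw [LinearMap.transvection.apply, LinearMap.transvection.apply, map_add, map_smul, map_smul, hΘ, smul_eq_mul,
    smul_eq_mul, mul_one, smul_smul, smul_smul, add_assoc, ← add_smul]
  have : Θ w * (ν - 1) + (Θ w + Θ w * (ν - 1)) * (μ - 1) = 0 := by linear_combination (Θ w) * h
  rw [this, zero_smul, add_zero]

omit [FiniteDimensional F K] [FiniteDimensional F V] in
theorem dil_det {K V : Type*} [Field K] [AddCommGroup V] [Module K V] [FiniteDimensional K V]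
    {Θ : V →ₗ[K] K} {c : V} {ν : K} (hΘ : Θ c = 1) :
    LinearMap.det (LinearMap.transvection Θ ((ν - 1) • c)) = ν := by
  rw [LinearMap.transvection.det, map_smul, hΘ, smul_eq_mul, mul_one]; ring

theorem HX.h2 (h : HX K X) (Θ : V →ₗ[K] K) (c : V) (ν : K) (hΘ : Θ c = 1) (hν : Algebra.norm F ν = 1) :
    P X (et (LinearMap.mulLeft F (ν - 1)) Θ c) := by
  haveI : FiniteDimensional K V := FiniteDimensional.right F K V
  have hν0 : ν ≠ 0 := by
    rintro rfl
    rw [Algebra.norm_zero] at hν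
    exact zero_ne_one hν
  obtain ⟨y, hy, hy'⟩ := h (LinearMap.transvection Θ ((ν - 1) • c)) (LinearMap.transvection Θ ((ν⁻¹ - 1) • c))
    (dil_inv hΘ (inv_mul_cancel₀ hν0)) (dil_inv hΘ (mul_inv_cancel₀ hν0)) (by rw [dil_det hΘ, hν])
  refine ⟨y, hy, fun w => ?_⟩
  rw [hy', LinearMap.transvection.apply, et_apply, LinearMap.mulLeft_apply, smul_smul, mul_comm]

/-- the main abstract theorem -/
theorem main_abs [Finite F] [Finite K] (hr : (finrank F K).Prime) (hV : 2 ≤ finrank K V) (hX : HX K X)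
    {x : V ≃ₗ[F] V} (hx : x ∈ X) {a0 : V} (z0 : K) (hx0 : x (z0 • a0) ∉ Kl F K (x a0)) (φ : V →ₗ[F] F) (a : V)
    (ha : φ a = 0) : P X (φ.smulRight a) := by
  have hr2 : 2 ≤ finrank F K := hr.two_le
  refine all_tv hr2 hV hX.h1 hX.h2 ?_ φ a ha
  obtain ⟨M', a, b, l, a1, Ψ, φ, C⟩ := exists_cfg hr hX.h1 hx z0 hx0
  by_cases hF : ∀ x : F, x = 0 ∨ x = 1
  · by_cases h3 : 3 ≤ finrank F K
    · exact C.tv_bimod inferInstance hr h3 hX.h1 hX.h2 hF
    · have h2 : finrank F K = 2 := by omega
      by_cases hV3 : 3 ≤ finrank K V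
      · exact C.tv_of_dim_three hX.h1 hV3
      · refine C.tv_four h2 (by omega) ?_ hF
        intro f g h1 h2
        refine hX f g h1 h2 ?_
        have hne : LinearMap.det f ≠ 0 := by
          intro h
          have h3 : g ∘ₗ f = LinearMap.id := LinearMap.ext h1
          have h4 := congrArg LinearMap.det h3
          rw [LinearMap.det_comp, h, mul_zero, LinearMap.det_id] at h4
          exact zero_ne_one h4
        rcases hF (Algebra.norm F (LinearMap.det f)) with h | h
        · exact absurd (Algebra.norm_eq_zero_iff.1 h) hne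
        · exact h
  · push Not at hF
    obtain ⟨x, hx0, hx1⟩ := hF
    exact C.tv_of_three hX.h1 hx0 hx1

/-- an additive automorphism preserving the `K`-lines is semilinear -/
theorem line_semilinear (hV : 2 ≤ finrank K V) (x : V ≃ₗ[F] V) (h : ∀ (a : V) (z : K), x (z • a) ∈ Kl F K (x a)) (z : K) :
    ∃ z' : K, ∀ v, x (z • v) = z' • x v := by
  have h1 : ∀ a : V, ∃ z' : K, x (z • a) = z' • x a := by
    intro a
    obtain ⟨z', hz'⟩ := mem_Kl.1 (h a z)
    exact ⟨z', hz'.symm⟩
  choose f hf using h1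
  have hind : ∀ a b : V, a ≠ 0 → x b ∉ Submodule.span K {x a} → f a = f b := by
    intro a b ha hb
    have hxa : x a ≠ 0 := by simpa using ha
    have h2 := hf (a + b)
    rw [smul_add, map_add, hf, hf, map_add, smul_add] at h2
    have h3 : (f a - f (a + b)) • x a = (f (a + b) - f b) • x b := by
      rw [sub_smul, sub_smul, sub_eq_sub_iff_add_eq_add, h2, add_comm]
    have h4 : f (a + b) - f b = 0 := by
      by_contra hne
      apply hb
      rw [Submodule.mem_span_singleton]
      refine ⟨(f (a + b) - f b)⁻¹ * (f a - f (a + b)), ?_⟩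
      rw [mul_smul, h3, smul_smul, inv_mul_cancel₀ hne, one_smul]
    rw [h4, zero_smul] at h3
    have h5 := (smul_eq_zero.1 h3).resolve_right hxa
    rw [sub_eq_zero] at h4 h5
    rw [h5, h4]
  haveI : FiniteDimensional K V := FiniteDimensional.right F K V
  have hnt : Nontrivial V := by
    by_contra hcon
    rw [not_nontrivial_iff_subsingleton] at hcon
    rw [finrank_zero_of_subsingleton] at hV
    omega
  obtain ⟨a, ha⟩ := exists_ne (0 : V)
  refine ⟨f a, fun v => ?_⟩
  by_cases hv : v = 0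
  · subst hv; simp
  by_cases hin : x v ∈ Submodule.span K {x a}
  · obtain ⟨w, hw⟩ := exists_notMem_Kl (F := F) hV (x a)
    obtain ⟨c, rfl⟩ := x.surjective w
    have e1 := hind a c ha hw
    have e2 : f v = f c := by
      refine hind v c hv ?_
      intro h2
      apply hw
      exact (Submodule.span_singleton_le_iff_mem _ _).2 hin h2
    rw [hf v, e2, e1]
  · rw [hf v, hind a v ha hin]

end

section Mat
open Cfsg CfsgLib.MaxTv29
open scoped MatrixGroups Matrix

variable {n : ℕ} {F K : Type*} [Field F] [Field K] [Algebra F K] [Module K (Fin n → F)]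
  [IsScalarTower F K (Fin n → F)] [FiniteDimensional F K]

/-- the group of linear automorphisms attached to a group of matrices -/
noncomputable def XH (H : Subgroup (GL (Fin n) F)) : Subgroup ((Fin n → F) ≃ₗ[F] (Fin n → F)) where
  carrier := {e | ∃ g ∈ H, ∀ v, e v = (g : Matrix (Fin n) (Fin n) F) *ᵥ v}
  mul_mem' := by
    rintro a b ⟨g, hg, hg'⟩ ⟨h, hh, hh'⟩
    refine ⟨g * h, H.mul_mem hg hh, fun v => ?_⟩
    rw [LinearEquiv.mul_apply, hh', hg', Units.val_mul, Matrix.mulVec_mulVec]
  one_mem' := ⟨1, H.one_mem, fun v => by simp⟩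
  inv_mem' := by
    rintro a ⟨g, hg, hg'⟩
    refine ⟨g⁻¹, H.inv_mem hg, fun v => ?_⟩
    apply a.injective
    have h5 : a (a⁻¹ v) = v := by rw [← LinearEquiv.mul_apply, mul_inv_cancel]; rfl
    rw [h5, hg', mulVec_inv_mulVec]

/-- the matrix of a `K`-linear automorphism -/
noncomputable def glOf (f g : (Fin n → F) →ₗ[K] (Fin n → F)) (h1 : ∀ w, g (f w) = w) (h2 : ∀ w, f (g w) = w) :
    GL (Fin n) F where
  val := LinearMap.toMatrix' (f.restrictScalars F)
  inv := LinearMap.toMatrix' (g.restrictScalars F)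
  val_inv := by
    rw [← LinearMap.toMatrix'_comp]
    have : (f.restrictScalars F) ∘ₗ (g.restrictScalars F) = LinearMap.id := LinearMap.ext h2
    rw [this, LinearMap.toMatrix'_id]
  inv_val := by
    rw [← LinearMap.toMatrix'_comp]
    have : (g.restrictScalars F) ∘ₗ (f.restrictScalars F) = LinearMap.id := LinearMap.ext h1
    rw [this, LinearMap.toMatrix'_id]

theorem glOf_mulVec (f g : (Fin n → F) →ₗ[K] (Fin n → F)) (h1 : ∀ w, g (f w) = w) (h2 : ∀ w, f (g w) = w)
    (v : Fin n → F) : ((glOf f g h1 h2 : GL (Fin n) F) : Matrix (Fin n) (Fin n) F) *ᵥ v = f v := by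
  change LinearMap.toMatrix' (f.restrictScalars F) *ᵥ v = f v
  rw [← Matrix.toLin'_apply, Matrix.toLin'_toMatrix']; rfl

theorem glOf_det (f g : (Fin n → F) →ₗ[K] (Fin n → F)) (h1 : ∀ w, g (f w) = w) (h2 : ∀ w, f (g w) = w) :
    ((glOf f g h1 h2 : GL (Fin n) F) : Matrix (Fin n) (Fin n) F).det = Algebra.norm F (LinearMap.det f) := by
  change (LinearMap.toMatrix' (f.restrictScalars F)).det = _
  rw [LinearMap.det_toMatrix', LinearMap.det_restrictScalars]

/-- the subalgebra acts as the field -/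
structure Act (K0 : Subalgebra F (Matrix (Fin n) (Fin n) F)) (j : K → Matrix (Fin n) (Fin n) F) : Prop where
  act : ∀ (k : K) (v : Fin n → F), j k *ᵥ v = k • v
  mem : ∀ M, M ∈ K0 ↔ ∃ k, j k = M

theorem mat_ext {A B : Matrix (Fin n) (Fin n) F} (h : ∀ v, A *ᵥ v = B *ᵥ v) : A = B :=
  Matrix.ext_of_mulVec_single fun i => h _

variable {K0 : Subalgebra F (Matrix (Fin n) (Fin n) F)} {j : K → Matrix (Fin n) (Fin n) F}

theorem mem_norm_of (g : GL (Fin n) F)
    (h : ∀ k ∈ K0, (g : Matrix (Fin n) (Fin n) F) * k * ((g⁻¹ : GL (Fin n) F) : Matrix (Fin n) (Fin n) F) ∈ K0) :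
    g ∈ Geo.subalgebraNormalizer K0 := by
  intro k
  refine ⟨h k, fun hk => ?_⟩
  -- finite dimension
  let c : K0 →ₗ[F] K0 :=
    { toFun := fun x => ⟨(g : Matrix (Fin n) (Fin n) F) * x * ((g⁻¹ : GL (Fin n) F) : Matrix (Fin n) (Fin n) F), h x x.2⟩
      map_add' := by
        intro x y
        apply Subtype.ext
        simp [mul_add, add_mul]
      map_smul' := by
        intro s x
        apply Subtype.ext
        simp }
  have hgi : ((g⁻¹ : GL (Fin n) F) : Matrix (Fin n) (Fin n) F) * (g : Matrix (Fin n) (Fin n) F) = 1 := by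
    rw [← Units.val_mul, inv_mul_cancel, Units.val_one]
  have hcancel : ∀ x y : Matrix (Fin n) (Fin n) F,
      (g : Matrix (Fin n) (Fin n) F) * x * ((g⁻¹ : GL (Fin n) F) : Matrix (Fin n) (Fin n) F) =
      (g : Matrix (Fin n) (Fin n) F) * y * ((g⁻¹ : GL (Fin n) F) : Matrix (Fin n) (Fin n) F) → x = y := by
    intro x y hxy
    have h3 := congrArg (fun M => ((g⁻¹ : GL (Fin n) F) : Matrix (Fin n) (Fin n) F) * M * (g : Matrix (Fin n) (Fin n) F)) hxy
    simp only [mul_assoc] at h3
    rw [hgi, mul_one, mul_one, ← mul_assoc, ← mul_assoc, hgi, one_mul, one_mul] at h3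
    exact h3
  have hinj : Function.Injective c := by
    intro x y hxy
    apply Subtype.ext
    exact hcancel _ _ (congrArg Subtype.val hxy)
  have hsurj : Function.Surjective c := LinearMap.surjective_of_injective hinj
  obtain ⟨x, hx⟩ := hsurj ⟨_, hk⟩
  have h4 := hcancel _ _ (congrArg Subtype.val hx)
  rw [← h4]; exact x.2

theorem Act.mem_norm (A : Act K0 j) {g : GL (Fin n) F} : g ∈ Geo.subalgebraNormalizer K0 ↔
    ∀ z : K, ∃ z' : K, ∀ v, (g : Matrix (Fin n) (Fin n) F) *ᵥ (z • v) = z' • ((g : Matrix (Fin n) (Fin n) F) *ᵥ v) := by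
  constructor
  · intro h z
    obtain ⟨z', hz'⟩ := (A.mem _).1 ((h (j z)).1 ((A.mem _).2 ⟨z, rfl⟩))
    refine ⟨z', fun v => ?_⟩
    rw [← A.act, ← A.act, hz', ← Matrix.mulVec_mulVec, ← Matrix.mulVec_mulVec, inv_mulVec_mulVec]
  · intro h
    apply mem_norm_of
    intro k hk
    obtain ⟨z, rfl⟩ := (A.mem _).1 hk
    obtain ⟨z', hz'⟩ := h z
    refine (A.mem _).2 ⟨z', ?_⟩
    apply mat_ext
    intro v
    rw [← Matrix.mulVec_mulVec, ← Matrix.mulVec_mulVec, A.act, A.act, hz', mulVec_inv_mulVec]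

theorem Act.glOf_mem (A : Act K0 j) (f g : (Fin n → F) →ₗ[K] (Fin n → F)) (h1 : ∀ w, g (f w) = w)
    (h2 : ∀ w, f (g w) = w) : glOf f g h1 h2 ∈ Geo.subalgebraNormalizer K0 := by
  rw [A.mem_norm]
  intro z
  exact ⟨z, fun v => by rw [glOf_mulVec, glOf_mulVec, map_smul]⟩

theorem mem_special {g : GL (Fin n) F} : g ∈ Geo.specialLinear (Fin n) F ↔ (g : Matrix (Fin n) (Fin n) F).det = 1 := by
  rw [Geo.specialLinear, MonoidHom.mem_ker, Units.ext_iff, Matrix.GeneralLinearGroup.val_det_apply, Units.val_one]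

theorem Act.hx (A : Act K0 j) {H : Subgroup (GL (Fin n) F)}
    (hH : Geo.subalgebraNormalizer K0 ⊓ Geo.specialLinear (Fin n) F ≤ H) : HX K (XH H) := by
  intro f g h1 h2 hn
  have hmem : glOf f g h1 h2 ∈ H := hH ⟨A.glOf_mem f g h1 h2, mem_special.2 (by
    rw [glOf_det, hn])⟩
  refine ⟨le (glOf f g h1 h2), ⟨_, hmem, fun v => rfl⟩, fun w => ?_⟩
  rw [le_apply, glOf_mulVec]

theorem Act.special_le [Finite F] [Finite K] (A : Act K0 j) (hr : (finrank F K).Prime)
    (hV : 2 ≤ finrank K (Fin n → F)) {H : Subgroup (GL (Fin n) F)}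
    (hH : Geo.subalgebraNormalizer K0 ⊓ Geo.specialLinear (Fin n) F ≤ H)
    (hH' : ¬ H ≤ Geo.subalgebraNormalizer K0) : Geo.specialLinear (Fin n) F ≤ H := by
  obtain ⟨x, hx, hxN⟩ := SetLike.not_le_iff_exists.1 hH'
  have h1 : ∃ (a0 : Fin n → F) (z0 : K), (le x) (z0 • a0) ∉ Kl F K ((le x) a0) := by
    by_contra hcon
    push Not at hcon
    apply hxN
    rw [A.mem_norm]
    intro z
    exact line_semilinear hV (le x) hcon z
  obtain ⟨a0, z0, h0⟩ := h1
  refine MaxTv29.special_le H fun a φ h => ?_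
  obtain ⟨e, ⟨g, hg, hg'⟩, he⟩ := main_abs hr hV (A.hx hH) (x := le x) ⟨x, hx, fun v => rfl⟩ z0 h0 φ a h
  have : tv a φ h = g := by
    apply gl_ext
    intro v
    rw [tv_mulVec, ← hg', he, LinearMap.smulRight_apply]
  rw [this]; exact hg

/-- transvections do not normalise -/
theorem Act.not_le (A : Act K0 j) (hr : (finrank F K).Prime)
    (hV : 2 ≤ finrank K (Fin n → F)) : ¬ Geo.specialLinear (Fin n) F ≤ Geo.subalgebraNormalizer K0 := by
  intro hle
  obtain ⟨θ, hθ⟩ := exists_not_mem (F := F) (K := K) hr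
  haveI : FiniteDimensional K (Fin n → F) := FiniteDimensional.right F K (Fin n → F)
  have hnt : Nontrivial (Fin n → F) := by
    by_contra hcon
    rw [not_nontrivial_iff_subsingleton] at hcon
    rw [finrank_zero_of_subsingleton] at hV
    omega
  obtain ⟨a, ha⟩ := exists_ne (0 : Fin n → F)
  obtain ⟨b, hb⟩ := exists_notMem_Kl (F := F) hV a
  -- functional killing `K a`, one on `b`, zero on `θ b`
  have hb' : b ∉ Kl F K a ⊔ Submodule.span F {θ • b} := by
    intro h
    obtain ⟨u, hu, v, hv, huv⟩ := Submodule.mem_sup.1 h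
    obtain ⟨s, rfl⟩ := Submodule.mem_span_singleton.1 hv
    have h3 : (1 - algebraMap F K s * θ) • b = u := by
      rw [sub_smul, one_smul, mul_smul, algebraMap_smul, sub_eq_iff_eq_add]; exact huv.symm
    have h4 : (1 - algebraMap F K s * θ) ≠ 0 := by
      intro h5
      have hs : s ≠ 0 := by rintro rfl; simp at h5
      apply hθ s⁻¹
      rw [map_inv₀]
      exact (eq_inv_of_mul_eq_one_right (by linear_combination -h5)).symm
    apply hb
    have h5 : b = (1 - algebraMap F K s * θ)⁻¹ • u := by rw [← h3, smul_smul, inv_mul_cancel₀ h4, one_smul]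
    rw [h5]
    exact Submodule.smul_mem (Submodule.span K {a}) _ hu
  obtain ⟨φ, hφb, hφ⟩ := exists_dual (K := F) _ hb'
  have hφa : ∀ z : K, φ (z • a) = 0 := fun z => hφ _ (Submodule.mem_sup_left (mem_Kl.2 ⟨z, rfl⟩))
  have hφθ : φ (θ • b) = 0 := hφ _ (Submodule.mem_sup_right (Submodule.mem_span_singleton_self _))
  have hφa1 : φ a = 0 := by simpa using hφa 1
  have h1 := hle (tv_mem_special a φ hφa1)
  rw [A.mem_norm] at h1
  obtain ⟨z', hz'⟩ := h1 θ
  have e1 := hz' a
  rw [tv_mulVec, tv_mulVec, hφa, hφa1, zero_smul, add_zero, add_zero] at e1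
  have hz : z' = θ := by
    rw [← sub_eq_zero, ← sub_smul, smul_eq_zero] at e1
    rcases e1 with e1 | e1
    · exact (sub_eq_zero.1 e1).symm
    · exact absurd e1 ha
  have e2 := hz' b
  rw [tv_mulVec, tv_mulVec, hφθ, hφb, zero_smul, add_zero, one_smul, hz, smul_add, left_eq_add, smul_eq_zero] at e2
  rcases e2 with e2 | e2
  · exact hθ 0 (by rw [map_zero, e2])
  · exact ha e2

theorem Act.exists_det [Finite F] [Finite K] (A : Act K0 j) (hV : 2 ≤ finrank K (Fin n → F)) (d : F) (hd : d ≠ 0) :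
    ∃ g ∈ Geo.subalgebraNormalizer K0, (g : Matrix (Fin n) (Fin n) F).det = d := by
  haveI : FiniteDimensional K (Fin n → F) := FiniteDimensional.right F K (Fin n → F)
  have hnt : Nontrivial (Fin n → F) := by
    by_contra hcon
    rw [not_nontrivial_iff_subsingleton] at hcon
    rw [finrank_zero_of_subsingleton] at hV
    omega
  obtain ⟨c, hc⟩ := exists_ne (0 : Fin n → F)
  obtain ⟨Θ, hΘ, -⟩ := exists_dual (K := K) (⊥ : Submodule K (Fin n → F)) (v := c) (by simpa using hc)
  obtain ⟨ν, hν⟩ := FiniteField.norm_surjective F K d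
  have hν0 : ν ≠ 0 := by
    rintro rfl
    rw [Algebra.norm_zero] at hν
    exact hd hν.symm
  refine ⟨_, A.glOf_mem (LinearMap.transvection Θ ((ν - 1) • c)) (LinearMap.transvection Θ ((ν⁻¹ - 1) • c))
    (dil_inv hΘ (inv_mul_cancel₀ hν0)) (dil_inv hΘ (mul_inv_cancel₀ hν0)), ?_⟩
  rw [glOf_det, dil_det hΘ, hν]

theorem Act.result [Finite F] [Finite K] (A : Act K0 j) (hr : (finrank F K).Prime)
    (hV : 2 ≤ finrank K (Fin n → F)) :
    IsCoatom (Geo.subalgebraNormalizer K0) ∧
      Geo.IsMaximalIn (Geo.specialLinear (Fin n) F)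
        (Geo.subalgebraNormalizer K0 ⊓ Geo.specialLinear (Fin n) F) := by
  refine ⟨⟨?_, ?_⟩, ?_, ?_⟩
  · intro h
    apply A.not_le hr hV
    rw [h]; exact le_top
  · intro H hH
    have h1 : Geo.specialLinear (Fin n) F ≤ H :=
      A.special_le hr hV (inf_le_left.trans hH.le) (fun h => absurd h (not_le_of_gt hH))
    rw [eq_top_iff]
    intro g _
    obtain ⟨h, hh, hd⟩ := A.exists_det hV (g : Matrix (Fin n) (Fin n) F).det (by
      have := (Matrix.GeneralLinearGroup.det g).ne_zero
      rwa [Matrix.GeneralLinearGroup.val_det_apply] at this)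
    have h2 : g * h⁻¹ ∈ Geo.specialLinear (Fin n) F := by
      rw [Geo.specialLinear, MonoidHom.mem_ker, map_mul, map_inv, mul_inv_eq_one]
      apply Units.ext
      rw [Matrix.GeneralLinearGroup.val_det_apply, Matrix.GeneralLinearGroup.val_det_apply, hd]
    have h3 : g = (g * h⁻¹) * h := by group
    rw [h3]
    exact H.mul_mem (h1 h2) (hH.le hh)
  · refine lt_of_le_of_ne inf_le_right (fun h => A.not_le hr hV ?_)
    rw [← h]; exact inf_le_left
  · intro H hH hH'
    by_cases h : H ≤ Geo.subalgebraNormalizer K0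
    · left; exact le_antisymm (le_inf h hH') hH
    · right; exact le_antisymm hH' (A.special_le hr hV hH h)

end Mat

end CfsgLib.Ext19
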