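import Cfsg.Agent.EqBase
import Cfsg.Agent.LibExtF19

set_option autoImplicit false
set_option maxHeartbeats 400000

/-! Overgroups of SL over an extension field: transfer to field subalgebras. -/

namespace CfsgLib.Ext19
open Module Cfsg
open scoped MatrixGroups Matrix

variable {n : ℕ} {F K : Type*} [Field F] [Field K] [Algebra F K]

theorem result_of_iso [Finite F] [Finite K] {K0 : Subalgebra F (Matrix (Fin n) (Fin n) F)} (e : K ≃ₐ[F] K0)
    (hr : (finrank F K).Prime) (hn : finrank F K < n) :
    IsCoatom (Geo.subalgebraNormalizer K0) ∧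
      Geo.IsMaximalIn (Geo.specialLinear (Fin n) F)
        (Geo.subalgebraNormalizer K0 ⊓ Geo.specialLinear (Fin n) F) := by
  haveI : FiniteDimensional F K := Module.Finite.of_finite
  letI : Module K (Fin n → F) := Module.compHom (Fin n → F)
    ((((Matrix.toLinAlgEquiv' : Matrix (Fin n) (Fin n) F ≃ₐ[F] _).toAlgHom.comp K0.val).comp
      (e : K →ₐ[F] K0) : K →ₐ[F] Module.End F (Fin n → F)) : K →+* Module.End F (Fin n → F))
  have hsm : ∀ (k : K) (v : Fin n → F), k • v = (e k : Matrix (Fin n) (Fin n) F) *ᵥ v := by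
    intro k v
    change (Matrix.toLinAlgEquiv' (e k : Matrix (Fin n) (Fin n) F)) v = _
    rw [Matrix.toLinAlgEquiv'_apply]
  haveI : IsScalarTower F K (Fin n → F) := ⟨fun f k v => by
    rw [hsm, hsm, map_smul, ← Matrix.smul_mulVec]
    rfl⟩
  have hV : 2 ≤ Module.finrank K (Fin n → F) := by
    have h1 := Module.finrank_mul_finrank F K (Fin n → F)
    rw [Module.finrank_fin_fun] at h1
    by_contra hcon
    have h2 : Module.finrank K (Fin n → F) ≤ 1 := by omega
    have : finrank F K * Module.finrank K (Fin n → F) ≤ finrank F K * 1 := Nat.mul_le_mul_left _ h2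
    omega
  have A : Act (K := K) K0 (fun k => (e k : Matrix (Fin n) (Fin n) F)) :=
    ⟨fun k v => (hsm k v).symm, fun M => ⟨fun h => ⟨e.symm ⟨M, h⟩, by simp⟩, fun ⟨k, hk⟩ => hk ▸ (e k).2⟩⟩
  exact A.result hr hV

end CfsgLib.Ext19
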