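import Cfsg.Agent.EqBase
import Cfsg.Agent.LibExtG19

set_option autoImplicit false
set_option maxHeartbeats 400000

/-! Extension field normalisers of composite degree are not maximal. -/

namespace CfsgLib.Ext19
open Module Cfsg
open scoped MatrixGroups Matrix

variable {n : ℕ} {F L : Type*} [Field F] [Field L] [Algebra F L]

theorem not_mem_span {V E : Type*} [AddCommGroup V] [Module L V] [Field E] [Algebra E L] [Module E V]
    [IsScalarTower E L V] {b c : V} {θ : L} (hθ : ∀ e : E, algebraMap E L e ≠ θ)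
    (hb : b ∉ Submodule.span L {c}) :
    b ∉ (Submodule.span L {c}).restrictScalars E ⊔ Submodule.span E {θ • b} := by
  intro h
  obtain ⟨u, hu, v, hv, huv⟩ := Submodule.mem_sup.1 h
  obtain ⟨s, rfl⟩ := Submodule.mem_span_singleton.1 hv
  have h3 : (1 - algebraMap E L s * θ) • b = u := by
    rw [sub_smul, one_smul, mul_smul, algebraMap_smul, sub_eq_iff_eq_add]; exact huv.symm
  have h4 : (1 - algebraMap E L s * θ) ≠ 0 := by
    intro h5
    have hs : s ≠ 0 := by rintro rfl; simp at h5
    apply hθ s⁻¹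
    rw [map_inv₀]
    exact (eq_inv_of_mul_eq_one_right (by linear_combination -h5)).symm
  apply hb
  have h5 : b = (1 - algebraMap E L s * θ)⁻¹ • u := by rw [← h3, smul_smul, inv_mul_cancel₀ h4, one_smul]
  rw [h5]
  exact Submodule.smul_mem (Submodule.span L {c}) _ hu

open Polynomial in
/-- the fixed points of a power of the Frobenius map -/
theorem mem_range_of_pow {E L : Type*} [Field E] [Field L] [Finite E] (f : E →+* L) {N : ℕ} (hN : Nat.card E = N)
    {y : L} (hy : y ^ N = y) : ∃ x, f x = y := by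
  classical
  letI := Fintype.ofFinite E
  have hN1 : 1 < N := by rw [← hN]; exact Finite.one_lt_card
  have hP0 : (X ^ N - X : L[X]) ≠ 0 := FiniteField.X_pow_card_sub_X_ne_zero L hN1
  have hdeg : (X ^ N - X : L[X]).natDegree = N := FiniteField.X_pow_card_sub_X_natDegree_eq L hN1
  have h1 : Finset.univ.image f ⊆ (X ^ N - X : L[X]).roots.toFinset := by
    intro z hz
    obtain ⟨x, -, rfl⟩ := Finset.mem_image.1 hz
    rw [Multiset.mem_toFinset, mem_roots hP0, IsRoot.def, eval_sub, eval_pow, eval_X, ← map_pow, sub_eq_zero]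
    have := FiniteField.pow_card x
    rw [← Nat.card_eq_fintype_card, hN] at this
    rw [this]
  have h2 : (X ^ N - X : L[X]).roots.toFinset.card ≤ (Finset.univ.image f).card := by
    rw [Finset.card_image_of_injective _ f.injective, Finset.card_univ, ← Nat.card_eq_fintype_card, hN]
    refine (Multiset.toFinset_card_le _).trans ?_
    conv_rhs => rw [← hdeg]
    exact card_roots' _
  have h3 := Finset.eq_of_subset_of_card_le h1 h2
  have h4 : y ∈ (X ^ N - X : L[X]).roots.toFinset := by
    rw [Multiset.mem_toFinset, mem_roots hP0, IsRoot.def, eval_sub, eval_pow, eval_X, hy, sub_self]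
  rw [← h3] at h4
  obtain ⟨x, -, hx⟩ := Finset.mem_image.1 h4
  exact ⟨x, hx⟩

theorem comp_of_iso [Finite F] [Finite L] {K0 : Subalgebra F (Matrix (Fin n) (Fin n) F)} (e : L ≃ₐ[F] K0)
    {s : ℕ} (hs : s.Prime) (hsr : s ∣ finrank F L) (hlt : s < finrank F L) (hn : finrank F L < n) (hrn : finrank F L ∣ n) :
    ¬ IsCoatom (Geo.subalgebraNormalizer K0) ∧
      ¬ Geo.IsMaximalIn (Geo.specialLinear (Fin n) F)
        (Geo.subalgebraNormalizer K0 ⊓ Geo.specialLinear (Fin n) F) := by
  classical
  haveI : FiniteDimensional F L := Module.Finite.of_finite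
  letI : Module L (Fin n → F) := Module.compHom (Fin n → F)
    (((Matrix.toLinAlgEquiv' (R := F) (n := Fin n)).toAlgHom.comp (K0.val.comp e.toAlgHom)).toRingHom)
  have hsm : ∀ (k : L) (v : Fin n → F), k • v = (e k : Matrix (Fin n) (Fin n) F) *ᵥ v := by
    intro k v
    change (Matrix.toLinAlgEquiv' (e k : Matrix (Fin n) (Fin n) F)) v = _
    rw [Matrix.toLinAlgEquiv'_apply]
  haveI : IsScalarTower F L (Fin n → F) := ⟨fun f k v => by
    rw [hsm, hsm, map_smul, ← Matrix.smul_mulVec]
    rfl⟩
  have hV : 2 ≤ Module.finrank L (Fin n → F) := by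
    have h1 := Module.finrank_mul_finrank F L (Fin n → F)
    rw [Module.finrank_fin_fun] at h1
    by_contra hcon
    have h2 : Module.finrank L (Fin n → F) ≤ 1 := by omega
    have : finrank F L * Module.finrank L (Fin n → F) ≤ finrank F L * 1 := Nat.mul_le_mul_left _ h2
    omega
  have A : Act (K := L) K0 (fun k => (e k : Matrix (Fin n) (Fin n) F)) :=
    ⟨fun k v => (hsm k v).symm, fun M => ⟨fun h => ⟨e.symm ⟨M, h⟩, by simp⟩, fun ⟨k, hk⟩ => hk ▸ (e k).2⟩⟩
  -- the subfield
  obtain ⟨p, hp⟩ := CharP.exists F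
  haveI : CharP F p := hp
  haveI : Fact p.Prime := ⟨CharP.char_is_prime F p⟩
  haveI : NeZero s := ⟨hs.ne_zero⟩
  let E := FiniteField.Extension F p s
  haveI : Finite E := inferInstance
  have hE : finrank F E = s := FiniteField.finrank_extension F p s
  obtain ⟨f⟩ := FiniteField.nonempty_algHom_of_finrank_dvd (F := F) (K := E) (L := L) (by rw [hE]; exact hsr)
  letI algEL : Algebra E L := f.toRingHom.toAlgebra
  have hfa : ∀ x : E, algebraMap E L x = f x := fun x => rfl
  haveI : IsScalarTower F E L := IsScalarTower.of_algebraMap_eq fun x => (f.commutes x).symm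
  letI : Module E (Fin n → F) := Module.compHom (Fin n → F) (algebraMap E L)
  haveI : IsScalarTower E L (Fin n → F) := ⟨fun x y v => by rw [Algebra.smul_def, mul_smul]; rfl⟩
  haveI : IsScalarTower F E (Fin n → F) := ⟨fun a x v => by
    have h1 : ∀ (x : E) (v : Fin n → F), x • v = (f x) • v := fun x v => rfl
    rw [h1, h1, map_smul, smul_assoc]⟩
  let φ : E →ₐ[F] Matrix (Fin n) (Fin n) F := K0.val.comp (e.toAlgHom.comp f)
  have hφ : ∀ x, φ x = (e (f x) : Matrix (Fin n) (Fin n) F) := fun x => rfl
  have hφi : Function.Injective φ := fun x y h => f.toRingHom.injective (e.injective (Subtype.ext h))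
  let e1 : E ≃ₐ[F] φ.range := AlgEquiv.ofInjective φ hφi
  obtain ⟨hc, hm⟩ := result_of_iso e1 (by rw [hE]; exact hs) (by rw [hE]; omega)
  have A1 : Act (K := E) φ.range (fun k => (e (f k) : Matrix (Fin n) (Fin n) F)) :=
    ⟨fun k v => (hsm (f k) v).symm, fun M => ⟨fun ⟨k, hk⟩ => ⟨k, hk⟩, fun ⟨k, hk⟩ => ⟨k, hk⟩⟩⟩
  haveI : FiniteDimensional F E := Module.Finite.of_finite
  -- first inclusion
  have hle : Geo.subalgebraNormalizer K0 ≤ Geo.subalgebraNormalizer φ.range := by
    intro g hg
    apply mem_norm_of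
    rintro k ⟨x, hx⟩
    have hxk : (e (f x) : Matrix (Fin n) (Fin n) F) = k := hx
    have h1 : (g : Matrix (Fin n) (Fin n) F) * k * ((g⁻¹ : GL (Fin n) F) : Matrix (Fin n) (Fin n) F) ∈ K0 :=
      (hg k).1 (hxk ▸ (e (f x)).2)
    obtain ⟨y, hy⟩ := e.surjective ⟨_, h1⟩
    have hy' : (e y : Matrix (Fin n) (Fin n) F) = (g : Matrix (Fin n) (Fin n) F) * k * ((g⁻¹ : GL (Fin n) F) : Matrix (Fin n) (Fin n) F) :=
      congrArg Subtype.val hy
    have hpow : ∀ m : ℕ, ((g : Matrix (Fin n) (Fin n) F) * k * ((g⁻¹ : GL (Fin n) F) : Matrix (Fin n) (Fin n) F)) ^ m =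
        (g : Matrix (Fin n) (Fin n) F) * k ^ m * ((g⁻¹ : GL (Fin n) F) : Matrix (Fin n) (Fin n) F) := by
      intro m
      exact (Units.conj_pow g k m)
    have hyN : y ^ (Nat.card E) = y := by
      apply e.injective
      apply Subtype.ext
      rw [map_pow]
      have h2 : ((e y ^ Nat.card E : K0) : Matrix (Fin n) (Fin n) F) = (e y : Matrix (Fin n) (Fin n) F) ^ Nat.card E := rfl
      rw [h2, hy', hpow]
      congr 2
      letI := Fintype.ofFinite E
      have h3 := FiniteField.pow_card x
      rw [← Nat.card_eq_fintype_card] at h3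
      have h4 : k ^ Nat.card E = φ (x ^ Nat.card E) := by rw [map_pow]; rw [← hxk]; rfl
      rw [h4, h3]
      exact hx
    obtain ⟨x', hx'⟩ := mem_range_of_pow f.toRingHom rfl hyN
    refine ⟨x', ?_⟩
    change (e (f x') : Matrix (Fin n) (Fin n) F) = _
    rw [← hy']
    congr 2
  -- the transvection
  obtain ⟨θ, hθ⟩ : ∃ θ : L, ∀ x : E, algebraMap E L x ≠ θ := by
    by_contra hcon
    push Not at hcon
    have h1 : Function.Surjective f := hcon
    have h2 : finrank F L ≤ finrank F E := LinearMap.finrank_le_finrank_of_surjective (f := f.toLinearMap) h1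
    omega
  haveI : FiniteDimensional L (Fin n → F) := FiniteDimensional.right F L (Fin n → F)
  have hnt : Nontrivial (Fin n → F) := by
    by_contra hcon
    rw [not_nontrivial_iff_subsingleton] at hcon
    rw [finrank_zero_of_subsingleton] at hV
    omega
  obtain ⟨a, ha⟩ := exists_ne (0 : Fin n → F)
  obtain ⟨b, hb⟩ := exists_notMem_Kl (F := F) hV a
  have hb' := not_mem_span (E := E) hθ (b := b) (c := a) hb
  obtain ⟨Θ, hΘb, hΘ⟩ := exists_dual (K := E) _ hb'
  have hΘa : ∀ z : L, Θ (z • a) = 0 := fun z => hΘ _ (Submodule.mem_sup_left (Submodule.mem_span_singleton.2 ⟨z, rfl⟩))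
  have hΘθ : Θ (θ • b) = 0 := hΘ _ (Submodule.mem_sup_right (Submodule.mem_span_singleton_self _))
  have hΘa1 : Θ a = 0 := by simpa using hΘa 1
  have t1 : ∀ w, LinearMap.transvection Θ (-a) (LinearMap.transvection Θ a w) = w := by
    intro w
    rw [LinearMap.transvection.apply, LinearMap.transvection.apply, map_add, map_smul, hΘa1]
    simp
  have t2 : ∀ w, LinearMap.transvection Θ a (LinearMap.transvection Θ (-a) w) = w := by
    intro w
    rw [LinearMap.transvection.apply, LinearMap.transvection.apply, map_add, map_smul, map_neg, hΘa1]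
    simp
  have hT1 : glOf (LinearMap.transvection Θ a) (LinearMap.transvection Θ (-a)) t1 t2 ∈ Geo.subalgebraNormalizer φ.range :=
    A1.glOf_mem _ _ _ _
  haveI : FiniteDimensional E (Fin n → F) := FiniteDimensional.right F E (Fin n → F)
  have hT2 : glOf (LinearMap.transvection Θ a) (LinearMap.transvection Θ (-a)) t1 t2 ∈ Geo.specialLinear (Fin n) F := by
    rw [mem_special, glOf_det, LinearMap.transvection.det, hΘa1, add_zero, map_one]
  have hT3 : glOf (LinearMap.transvection Θ a) (LinearMap.transvection Θ (-a)) t1 t2 ∉ Geo.subalgebraNormalizer K0 := by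
    intro h1
    rw [A.mem_norm] at h1
    obtain ⟨z', hz'⟩ := h1 θ
    have e1 := hz' a
    rw [glOf_mulVec, glOf_mulVec, LinearMap.transvection.apply, LinearMap.transvection.apply, hΘa, hΘa1, zero_smul, add_zero, add_zero] at e1
    have hz : z' = θ := by
      rw [← sub_eq_zero, ← sub_smul, smul_eq_zero] at e1
      rcases e1 with e1 | e1
      · exact (sub_eq_zero.1 e1).symm
      · exact absurd e1 ha
    have e2 := hz' b
    rw [glOf_mulVec, glOf_mulVec, LinearMap.transvection.apply, LinearMap.transvection.apply, hΘθ, hΘb, zero_smul, add_zero, one_smul, hz, smul_add, left_eq_add, smul_eq_zero] at e2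
    rcases e2 with e2 | e2
    · exact hθ 0 (by rw [map_zero, e2])
    · exact ha e2
  constructor
  · intro hco
    have h1 : Geo.subalgebraNormalizer K0 < Geo.subalgebraNormalizer φ.range :=
      lt_of_le_of_ne hle (fun h => hT3 (h ▸ hT1))
    exact hc.1 (hco.2 _ h1)
  · rintro ⟨-, hmax⟩
    rcases hmax (Geo.subalgebraNormalizer φ.range ⊓ Geo.specialLinear (Fin n) F) (inf_le_inf_right _ hle) inf_le_right with h | h
    · have h2 : glOf (LinearMap.transvection Θ a) (LinearMap.transvection Θ (-a)) t1 t2 ∈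
          Geo.subalgebraNormalizer φ.range ⊓ Geo.specialLinear (Fin n) F := ⟨hT1, hT2⟩
      rw [h] at h2
      exact hT3 h2.1
    · exact hm.1.ne h

end CfsgLib.Ext19
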