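import Mathlib
import Cfsg.Agent.EqBase
import Cfsg.Agent.LibQuot19
import Cfsg.Agent.LibCharMore
import Cfsg.Agent.LibTate2
import Cfsg.Agent.LibFusionH12c
import Cfsg.Agent.LibLE10

set_option autoImplicit false
set_option maxHeartbeats 400000
set_option linter.unusedSectionVars false

/-! Extending characters of the normalizer of a Sylow subgroup (helper19) -/

namespace CfsgLib.ExtN19

open Cfsg CfsgLib.CharBasic
open CfsgLib.FusionH12 (cj SylIn SylIn.ofSylow SylIn.mono SylIn.cj SylIn.exists_conj mem_cj conj_mem_cj cj_mul)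
open scoped commutatorElement

universe u
variable {G : Type u} [Group G] [Finite G] {p : ℕ} [Fact p.Prime]

theorem exists_ker {χ : G → ℂ} (h : IsCharacter G χ) :
    ∃ K : Subgroup G, K.Normal ∧ ∀ g, g ∈ K ↔ χ g = χ 1 := by
  obtain ⟨n, ρ, rfl⟩ := h
  refine ⟨MonoidHom.ker ρ, inferInstance, fun g => ?_⟩
  rw [MonoidHom.mem_ker]
  constructor
  · intro h
    rw [Representation.character, Representation.character, h, ← map_one ρ]
  · intro h
    rw [Representation.char_one] at h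
    obtain ⟨ω, hω⟩ := (norm_character_eq_iff ρ g).1 (by rw [h]; simp)
    rcases Nat.eq_zero_or_pos n with hn | hn
    · subst hn
      apply LinearMap.ext
      intro v
      exact Subsingleton.elim _ _
    · rw [Representation.character, hω, map_smul, LinearMap.trace_id, smul_eq_mul] at h
      have h0 : (Module.finrank ℂ (Fin n → ℂ) : ℂ) ≠ 0 := by
        rw [Module.finrank_fin_fun]
        exact_mod_cast hn.ne'
      have h1 : ω = 1 := by
        apply mul_right_cancel₀ h0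
        rw [h, one_mul]
      rw [hω, h1, one_smul]; rfl

section Fwd
variable (P : Sylow p G)

local notation "NP" => (Subgroup.normalizer ((P : Subgroup G) : Set G))

theorem exists_K (hext : ∀ θ : IrrCharacter NP, ¬ p ∣ charDegree (θ : NP → ℂ) → ∃ χ : IrrCharacter G, ∀ x : NP, (χ : G → ℂ) x = (θ : NP → ℂ) x)
    (D : Subgroup NP) [hDn : D.Normal] (hDP : D ≤ (P : Subgroup G).subgroupOf NP)
    (hab : ∀ a ∈ (P : Subgroup G).subgroupOf NP, ∀ b ∈ (P : Subgroup G).subgroupOf NP, a * b * a⁻¹ * b⁻¹ ∈ D) :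
    ∃ K : Subgroup G, K.Normal ∧ ∀ x : NP, (x : G) ∈ K ↔ x ∈ D := by
  classical
  set PN := (P : Subgroup G).subgroupOf NP with hPN
  haveI hPNn : PN.Normal := Subgroup.normal_in_normalizer
  have hdeg : ∀ ξ : IrrCharacter (NP ⧸ D), ¬ p ∣ charDegree (ξ : NP ⧸ D → ℂ) := by
    intro ξ
    haveI : (PN.map (QuotientGroup.mk' D)).Normal := Subgroup.Normal.map hPNn _ (QuotientGroup.mk'_surjective D)
    have h1 := CfsgLib.CharMore.ito ξ.2 (PN.map (QuotientGroup.mk' D)) (by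
      rintro _ ⟨a, ha, rfl⟩ _ ⟨b, hb, rfl⟩
      have h2 := hab a ha b hb
      rw [← QuotientGroup.eq_one_iff] at h2
      have h3 : ((a : NP ⧸ D)) * (b : NP ⧸ D) * (a : NP ⧸ D)⁻¹ * (b : NP ⧸ D)⁻¹ = 1 := h2
      change (a : NP ⧸ D) * (b : NP ⧸ D) = (b : NP ⧸ D) * (a : NP ⧸ D)
      rw [mul_inv_eq_one, mul_inv_eq_iff_eq_mul] at h3
      exact h3)
    rw [Subgroup.index_map_eq _ (QuotientGroup.mk'_surjective D) (by rw [QuotientGroup.ker_mk']; exact hDP)] at h1
    intro h2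
    have h3 : p ∣ PN.index := h2.trans h1
    have h4 : PN.index ∣ (P : Subgroup G).index := Subgroup.relIndex_dvd_index_of_le Subgroup.le_normalizer
    exact P.not_dvd_index (h3.trans h4)
  have hex : ∀ ξ : IrrCharacter (NP ⧸ D), ∃ K : Subgroup G, K.Normal ∧ ∀ x : NP, (x : G) ∈ K ↔ (ξ : NP ⧸ D → ℂ) (x : NP ⧸ D) = (ξ : NP ⧸ D → ℂ) 1 := by
    intro ξ
    obtain ⟨χ, hχ⟩ := hext ⟨fun g : NP => (ξ : NP ⧸ D → ℂ) (g : NP ⧸ D), CfsgLib.Quot19.irr_inflate D ξ.2⟩ (by
      have h1 : charDegree (fun g : NP => (ξ : NP ⧸ D → ℂ) (g : NP ⧸ D)) = charDegree (ξ : NP ⧸ D → ℂ) := rfl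
      change ¬ p ∣ charDegree (fun g : NP => (ξ : NP ⧸ D → ℂ) (g : NP ⧸ D))
      rw [h1]
      exact hdeg ξ)
    obtain ⟨K, hK, hK2⟩ := exists_ker (irr_isCharacter χ.2)
    refine ⟨K, hK, fun x => ?_⟩
    rw [hK2]
    have h2 : (χ : G → ℂ) x = (ξ : NP ⧸ D → ℂ) (x : NP ⧸ D) := hχ x
    have h3 : (χ : G → ℂ) 1 = (ξ : NP ⧸ D → ℂ) 1 := hχ 1
    rw [h2, h3]
  choose K hK hK2 using hex
  refine ⟨⨅ ξ, K ξ, ?_, fun x => ?_⟩
  · exact Subgroup.normal_iInf_normal hK
  · rw [Subgroup.mem_iInf]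
    constructor
    · intro h
      rw [← QuotientGroup.eq_one_iff, ← isConj_one_right, isConj_comm, isConj_iff_irr]
      intro ξ
      exact (hK2 ξ x).1 (h ξ)
    · intro h ξ
      rw [hK2, (QuotientGroup.eq_one_iff x).2 h]

theorem forward (hext : ∀ θ : IrrCharacter NP, ¬ p ∣ charDegree (θ : NP → ℂ) → ∃ χ : IrrCharacter G, ∀ x : NP, (χ : G → ℂ) x = (θ : NP → ℂ) x) :
    ∃ K : Subgroup G, K.Normal ∧ K ⊔ NP = ⊤ ∧ K ⊓ NP = ⊥ := by
  classical
  have hPle : (P : Subgroup G) ≤ NP := Subgroup.le_normalizer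
  set PN := (P : Subgroup G).subgroupOf NP with hPN
  haveI hPNn : PN.Normal := Subgroup.normal_in_normalizer
  obtain ⟨L, hL, hL2⟩ := exists_K P hext PN le_rfl (fun a ha b hb => PN.mul_mem (PN.mul_mem (PN.mul_mem ha hb) (PN.inv_mem ha)) (PN.inv_mem hb))
  obtain ⟨K, hK, hK2⟩ := exists_K P hext ⁅PN, PN⁆ (Subgroup.commutator_le_left PN PN) (fun a ha b hb => by
    have := Subgroup.commutator_mem_commutator ha hb
    rwa [commutatorElement_def] at this)
  have hPL : (P : Subgroup G) ≤ L := fun x hx => (hL2 ⟨x, hPle hx⟩).2 hx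
  have hLN : ∀ x ∈ L, x ∈ NP → x ∈ (P : Subgroup G) := fun x hx hxN => (hL2 ⟨x, hxN⟩).1 hx
  have hPN' : (⁅PN, PN⁆).map (Subgroup.subtype NP) = ⁅(P : Subgroup G), (P : Subgroup G)⁆ := by
    rw [Subgroup.map_commutator, hPN, Subgroup.subgroupOf_map_subtype, inf_of_le_left hPle]
  have hKP : ∀ x ∈ (P : Subgroup G), x ∈ K → x ∈ ⁅(P : Subgroup G), (P : Subgroup G)⁆ := by
    intro x hx hxK
    rw [← hPN']
    exact ⟨⟨x, hPle hx⟩, (hK2 ⟨x, hPle hx⟩).1 hxK, rfl⟩
  have hPK : ⁅(P : Subgroup G), (P : Subgroup G)⁆ ≤ K := by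
    intro x hx
    rw [← hPN'] at hx
    obtain ⟨y, hy, rfl⟩ := hx
    exact (hK2 y).2 hy
  -- the focal subgroup of L
  have hcomm : ∀ u ∈ (P : Subgroup G), ∀ v ∈ (P : Subgroup G), ((u : G ⧸ K)) * (v : G ⧸ K) = (v : G ⧸ K) * (u : G ⧸ K) := by
    intro u hu v hv
    have h1 : u * v * u⁻¹ * v⁻¹ ∈ K := by
      apply hPK
      have := Subgroup.commutator_mem_commutator hu hv
      rwa [commutatorElement_def] at this
    rw [← QuotientGroup.eq_one_iff] at h1
    have h3 : ((u : G ⧸ K)) * (v : G ⧸ K) * (u : G ⧸ K)⁻¹ * (v : G ⧸ K)⁻¹ = 1 := h1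
    rw [mul_inv_eq_one, mul_inv_eq_iff_eq_mul] at h3
    exact h3
  have hfoc : (P : Subgroup G) ⊓ ⁅L, L⁆ ≤ ⁅(P : Subgroup G), (P : Subgroup G)⁆ := by
    apply CfsgLib.FusionH12c.focal_le ((SylIn.ofSylow P).mono hPL le_top)
    intro d hd g hg hgd
    let C : Subgroup G := (Subgroup.centralizer ({(d : G ⧸ K)} : Set (G ⧸ K))).comap (QuotientGroup.mk' K) ⊓ L
    have hmemC : ∀ x, x ∈ C ↔ ((x : G ⧸ K) * (d : G ⧸ K) = (d : G ⧸ K) * (x : G ⧸ K)) ∧ x ∈ L := by
      intro x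
      change x ∈ (Subgroup.centralizer ({(d : G ⧸ K)} : Set (G ⧸ K))).comap (QuotientGroup.mk' K) ∧ x ∈ L ↔ _
      rw [Subgroup.mem_comap, Subgroup.mem_centralizer_singleton_iff]
      rfl
    have h1 : (P : Subgroup G) ≤ C := by
      intro u hu
      rw [hmemC]
      exact ⟨hcomm u hu d hd, hPL hu⟩
    have h2 : cj g⁻¹ (P : Subgroup G) ≤ C := by
      intro x hx
      rw [mem_cj, inv_inv] at hx
      rw [hmemC]
      constructor
      · have h3 := hcomm _ hx _ hgd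
        have h4 : (((g * x * g⁻¹ : G)) : G ⧸ K) = (g : G ⧸ K) * (x : G ⧸ K) * (g : G ⧸ K)⁻¹ := rfl
        have h5 : (((g * d * g⁻¹ : G)) : G ⧸ K) = (g : G ⧸ K) * (d : G ⧸ K) * (g : G ⧸ K)⁻¹ := rfl
        rw [h4, h5] at h3
        have h6 : (g : G ⧸ K) * ((x : G ⧸ K) * (d : G ⧸ K)) * (g : G ⧸ K)⁻¹ = (g : G ⧸ K) * ((d : G ⧸ K) * (x : G ⧸ K)) * (g : G ⧸ K)⁻¹ := by
          calc _ = (g : G ⧸ K) * (x : G ⧸ K) * (g : G ⧸ K)⁻¹ * ((g : G ⧸ K) * (d : G ⧸ K) * (g : G ⧸ K)⁻¹) := by group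
            _ = _ := by rw [h3]; group
        exact mul_left_cancel (mul_right_cancel h6)
      · have h3 : g⁻¹ * (g * x * g⁻¹) * g⁻¹⁻¹ ∈ L := hL.conj_mem _ (hPL hx) g⁻¹
        have h4 : g⁻¹ * (g * x * g⁻¹) * g⁻¹⁻¹ = x := by group
        rwa [h4] at h3
    have hS1 : SylIn p (P : Subgroup G) C := (SylIn.ofSylow P).mono h1 le_top
    have hS2 : SylIn p (cj g⁻¹ (P : Subgroup G)) C := by
      have h3 := (SylIn.ofSylow P).cj g⁻¹
      exact h3.mono h2 (fun x _ => by rw [mem_cj]; exact Subgroup.mem_top _)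
    obtain ⟨a, ha, hac⟩ := hS1.exists_conj hS2
    rw [← cj_mul] at hac
    have h3 : a * g⁻¹ ∈ NP := by
      rw [Subgroup.mem_normalizer_iff]
      intro x
      constructor
      · intro hx
        have := conj_mem_cj (g := a * g⁻¹) (D := (P : Subgroup G)) hx
        rw [hac] at this
        exact this
      · intro hx
        have h4 : (a * g⁻¹) * x * (a * g⁻¹)⁻¹ ∈ cj (a * g⁻¹) (P : Subgroup G) := by
          rw [hac]; exact hx
        rw [mem_cj] at h4
        have h5 : (a * g⁻¹)⁻¹ * ((a * g⁻¹) * x * (a * g⁻¹)⁻¹) * (a * g⁻¹) = x := by group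
        rwa [h5] at h4
    have haL : a ∈ L := ((hmemC a).1 ha).2
    have hw : a * g⁻¹ ∈ (P : Subgroup G) := hLN _ (L.mul_mem haL (L.inv_mem hg)) h3
    set w := a * g⁻¹ with hwdef
    have hga : g = w⁻¹ * a := by rw [hwdef]; group
    apply hKP _ ((P : Subgroup G).mul_mem hgd ((P : Subgroup G).inv_mem hd))
    rw [← QuotientGroup.eq_one_iff]
    have h4 := ((hmemC a).1 ha).1
    have h5 := hcomm w hw d hd
    have h6 : (((g * d * g⁻¹ * d⁻¹ : G)) : G ⧸ K) = (w : G ⧸ K)⁻¹ * ((a : G ⧸ K) * (d : G ⧸ K)) * (a : G ⧸ K)⁻¹ * (w : G ⧸ K) * (d : G ⧸ K)⁻¹ := by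
      rw [hga]
      change (w : G ⧸ K)⁻¹ * (a : G ⧸ K) * (d : G ⧸ K) * ((w : G ⧸ K)⁻¹ * (a : G ⧸ K))⁻¹ * (d : G ⧸ K)⁻¹ = _
      group
    rw [h6, h4]
    calc (w : G ⧸ K)⁻¹ * ((d : G ⧸ K) * (a : G ⧸ K)) * (a : G ⧸ K)⁻¹ * (w : G ⧸ K) * (d : G ⧸ K)⁻¹
        = (w : G ⧸ K)⁻¹ * ((d : G ⧸ K) * (w : G ⧸ K)) * (d : G ⧸ K)⁻¹ := by group
      _ = 1 := by rw [← h5]; group
  -- Tate
  set U : Subgroup G := ⁅L, L⁆ with hU
  haveI : U.Normal := Subgroup.commutator_normal L L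
  have hUL : U ≤ L := Subgroup.commutator_le_left L L
  have hfrat : ⁅(P : Subgroup G), (P : Subgroup G)⁆ ≤ (frattini (P : Subgroup G)).map (P : Subgroup G).subtype := by
    have h8 : (_root_.commutator (P : Subgroup G)).map (P : Subgroup G).subtype = ⁅(P : Subgroup G), (P : Subgroup G)⁆ := by
      rw [commutator_def, Subgroup.map_commutator]
      simp [← MonoidHom.range_eq_map]
    rw [← h8]
    exact Subgroup.map_mono (CfsgLib.LE.commutator_le_frattini (p := p) P.isPGroup')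
  have hnpc : HasNormalPComplement p U := CfsgLib.Tate.tate P U (by rw [inf_comm]; exact hfoc.trans hfrat)
  rw [CfsgLib.TransFus.hasNPC_iff_pResidual] at hnpc
  haveI hRc : (pResidual p U).Characteristic := CfsgLib.TransFus.pResidual_characteristic p
  set M : Subgroup G := (pResidual p U).map U.subtype with hM
  have hMn : M.Normal := ConjAct.normal_of_characteristic_of_normal
  have hMU : M ≤ U := Subgroup.map_subtype_le _
  have hMcard : Nat.card M = Nat.card (pResidual p U) := Subgroup.card_map_of_injective U.subtype_injective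
  refine ⟨M, hMn, ?_, ?_⟩
  · -- W = U ⊔ P is normal
    have hLNtop : L ⊔ NP = ⊤ := by
      rw [sup_comm]
      exact Sylow.normalizer_sup_eq_top' P hPL
    have hUN : U ⊔ NP = ⊤ := by
      have hWn : (U ⊔ (P : Subgroup G)).Normal := by
        have key : ∀ g : G, (∀ y ∈ (P : Subgroup G), g * y * g⁻¹ ∈ U ⊔ (P : Subgroup G)) → g ∈ Subgroup.normalizer ((U ⊔ (P : Subgroup G) : Subgroup G) : Set G) := by
          intro g hg
          apply Subgroup.mem_normalizer_fintype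
          intro x hx
          obtain ⟨u, hu, y, hy, rfl⟩ := Subgroup.mem_sup_of_normal_left.1 hx
          have h1 : g * (u * y) * g⁻¹ = (g * u * g⁻¹) * (g * y * g⁻¹) := by group
          rw [SetLike.mem_coe, h1]
          exact Subgroup.mul_mem _ (le_sup_left (a := U) ((inferInstance : U.Normal).conj_mem u hu g)) (hg y hy)
        rw [← Subgroup.normalizer_eq_top_iff, eq_top_iff, ← hLNtop]
        apply sup_le
        · intro l hl
          apply key
          intro y hy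
          have h1 : l * y * l⁻¹ = ⁅l, y⁆ * y := by rw [commutatorElement_def]; group
          rw [h1]
          exact Subgroup.mul_mem_sup (Subgroup.commutator_mem_commutator hl (hPL hy)) hy
        · intro n hn
          apply key
          intro y hy
          exact le_sup_right (a := U) ((Subgroup.mem_normalizer_iff.1 hn y).1 hy)
      have h2 : NP ⊔ (U ⊔ (P : Subgroup G)) = ⊤ := Sylow.normalizer_sup_eq_top' P le_sup_right
      rw [eq_top_iff, ← h2]
      exact sup_le le_sup_right (sup_le le_sup_left (hPle.trans le_sup_right))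
    have hUM : U ≤ M ⊔ (P : Subgroup G) := by
      obtain ⟨S⟩ : Nonempty (Sylow p U) := inferInstance
      have h1 := CfsgLib.Tate.pResidual_sup S
      obtain ⟨a, -, ha⟩ := CfsgLib.FusionH12.SylIn.exists_conj_le (SylIn.ofSylow P) (S.isPGroup'.map U.subtype) le_top
      intro u hu
      have h2 : a⁻¹ * u * a⁻¹⁻¹ ∈ U := (inferInstance : U.Normal).conj_mem u hu a⁻¹
      rw [inv_inv] at h2
      have h3 : (⟨a⁻¹ * u * a, h2⟩ : U) ∈ pResidual p U ⊔ (S : Subgroup U) := by rw [h1]; exact Subgroup.mem_top _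
      haveI : (pResidual p U).Normal := inferInstance
      obtain ⟨m, hm, s, hs, hms⟩ := Subgroup.mem_sup_of_normal_left.1 h3
      have h4 : (m : G) * (s : G) = a⁻¹ * u * a := congrArg Subtype.val hms
      have h5 : u = (a * m * a⁻¹) * (a * s * a⁻¹) := by
        calc u = a * (a⁻¹ * u * a) * a⁻¹ := by group
          _ = _ := by rw [← h4]; group
      rw [h5]
      refine Subgroup.mul_mem_sup (hMn.conj_mem _ ⟨m, hm, rfl⟩ a) (ha (conj_mem_cj ⟨s, hs, rfl⟩))
    rw [eq_top_iff, ← hUN]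
    exact sup_le (hUM.trans (sup_le le_sup_left (hPle.trans le_sup_right))) le_sup_right
  · rw [eq_bot_iff]
    rintro x ⟨hxM, hxN⟩
    have h1 : x ∈ (P : Subgroup G) := hLN x (hUL (hMU hxM)) hxN
    have h2 : Nat.Coprime (Nat.card M) (Nat.card (P : Subgroup G)) := by
      obtain ⟨k, hk⟩ := IsPGroup.iff_card.1 P.isPGroup'
      rw [hk, hMcard]
      apply Nat.Coprime.pow_right
      exact ((Nat.Prime.coprime_iff_not_dvd Fact.out).2 hnpc).symm
    have h3 := Subgroup.inf_eq_bot_of_coprime h2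
    have h4 : x ∈ M ⊓ (P : Subgroup G) := ⟨hxM, h1⟩
    rwa [h3] at h4

end Fwd

theorem backward {N K : Subgroup G} (hK : K.Normal) (h1 : K ⊔ N = ⊤) (h2 : K ⊓ N = ⊥) (θ : IrrCharacter N) :
    ∃ χ : IrrCharacter G, ∀ x : N, (χ : G → ℂ) x = (θ : N → ℂ) x := by
  haveI := hK
  let f : N →* G ⧸ K := (QuotientGroup.mk' K).comp N.subtype
  have hf : Function.Bijective f := by
    constructor
    · rw [injective_iff_map_eq_one]
      intro x hx
      have h3 : (x : G) ∈ K := (QuotientGroup.eq_one_iff _).1 hx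
      have h4 : (x : G) ∈ K ⊓ N := ⟨h3, x.2⟩
      rw [h2, Subgroup.mem_bot] at h4
      exact Subtype.ext h4
    · intro y
      obtain ⟨g, rfl⟩ := QuotientGroup.mk_surjective y
      have h3 : g ∈ K ⊔ N := by rw [h1]; exact Subgroup.mem_top g
      obtain ⟨k, hk, n, hn, rfl⟩ := Subgroup.mem_sup_of_normal_left.1 h3
      refine ⟨⟨n, hn⟩, ?_⟩
      change ((n : G) : G ⧸ K) = ((k * n : G) : G ⧸ K)
      rw [QuotientGroup.mk_mul, (QuotientGroup.eq_one_iff k).2 hk, one_mul]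
  let e : N ≃* G ⧸ K := MulEquiv.ofBijective f hf
  refine ⟨⟨fun g => ((θ : N → ℂ) ∘ e.symm) (g : G ⧸ K), CfsgLib.Quot19.irr_inflate K (isIrrCharacter_comp_equiv θ.2 e.symm)⟩, fun x => ?_⟩
  change (θ : N → ℂ) (e.symm (e x)) = _
  rw [e.symm_apply_apply]

end CfsgLib.ExtN19
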