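import Mathlib
import Cfsg.Agent.LibChevCent

set_option autoImplicit false
set_option linter.all false

/-! conjugacy of root elements, one of them central in U (seat helper23) -/

namespace CfsgLib.Chev

open Cfsg.Lie Matrix

namespace Good3

variable {D : ChevalleyDatum} {T : Tb} (g : Good3 D T)
include g

section
variable {F : Type*} [Field F]

theorem conj_lead {u : GL D.Idx F} (hu : u ∈ D.posUnipotent F) {r : ℕ} (hr : T.n / 2 ≤ r) (hr' : r < T.n) (c : F) :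
    ∃ z ∈ g.Uge (F := F) (r + 1), u * g.X r c * u⁻¹ = g.X r c * z := by
  have h1 := g.Uge_comm (k := r) hr hu (g.X_mem_Uge le_rfl hr' (-c))
  refine ⟨_, h1, ?_⟩
  rw [X_neg]
  group

theorem lead_ne {r s : ℕ} (hr : T.n / 2 ≤ r) (hr' : r < T.n) (hs : T.n / 2 ≤ s) (hs' : s < T.n) {c d : F}
    (hc : c ≠ 0) (hd : d ≠ 0) {y z : GL D.Idx F} (hy : y ∈ g.Uge (F := F) (r + 1)) (hz : z ∈ g.Uge (F := F) (s + 1))
    (h : g.X r c * y = g.X s d * z) : r = s := by
  rcases lt_trichotomy r s with h1 | h1 | h1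
  · exfalso
    have h2 : g.X r c * y = g.X r 0 * (g.X s d * z) := by rw [X_zero, one_mul, h]
    exact hc (g.Uge_unique hr hr' hy (Subgroup.mul_mem _ (g.X_mem_Uge (by omega) hs' _) (g.Uge_mono (by omega) hz)) h2).1
  · exact h1
  · exfalso
    have h2 : g.X s d * z = g.X s 0 * (g.X r c * y) := by rw [X_zero, one_mul, h]
    exact hd (g.Uge_unique hs hs' hz (Subgroup.mul_mem _ (g.X_mem_Uge (by omega) hr' _) (g.Uge_mono (by omega) hy)) h2).1

theorem root_conj {r s : ℕ} (hr' : r < T.n) (hs : T.n / 2 ≤ s) (hs' : s < T.n) {c d : F} (hc : c ≠ 0) (hd : d ≠ 0)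
    (hU : ∀ u ∈ D.posUnipotent F, u * g.X r c = g.X r c * u) {x : GL D.Idx F} (hx : x ∈ D.group F)
    (h : x * g.X r c * x⁻¹ = g.X s d) : ∃ w, VW T w ∧ wact T w r = s := by
  have hev := g.even
  obtain ⟨b, hb, n, hn, u', hu', rfl⟩ := g.bruhat hx
  obtain ⟨u, hu, h0, hh0, rfl⟩ := g.mem_B.1 hb
  obtain ⟨w, hw, h1, hh, e⟩ := g.mem_N.1 (Subgroup.mul_mem _ (H_le_N hh0) hn)
  have c2 := hU u' hu'
  have c3 : u * ((g.nw w * h1) * g.X r c * (g.nw w * h1)⁻¹) * u⁻¹ = g.X s d := by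
    rw [← e, ← h]
    calc u * (h0 * n * g.X r c * (h0 * n)⁻¹) * u⁻¹ = u * h0 * n * (g.X r c * u') * (u')⁻¹ * (u * h0 * n)⁻¹ := by group
      _ = u * h0 * n * (u' * g.X r c) * (u')⁻¹ * (u * h0 * n)⁻¹ := by rw [c2]
      _ = _ := by group
  obtain ⟨χ, _, _, hX⟩ := g.H_X hh
  have e1 : g.nw w * h1 * g.X r c * (g.nw w * h1)⁻¹ = g.nw w * (h1 * g.X r c * h1⁻¹) * (g.nw w)⁻¹ := by group
  rw [e1, hX r hr', g.nw_X hw hr'] at c3
  refine ⟨w, hw, ?_⟩
  have hwr := g.wact_lt hw hr'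
  have hc' : ((sgn T w r : ℤ) : F) * ((χ r : F) * c) ≠ 0 := by
    apply mul_ne_zero _ (mul_ne_zero (Units.ne_zero _) hc)
    rcases sgn_cases (T := T) w r with h | h <;> rw [h] <;> simp
  set c' := ((sgn T w r : ℤ) : F) * ((χ r : F) * c) with hc'e
  by_cases hpos : T.n / 2 ≤ wact T w r
  · obtain ⟨z, hz, e2⟩ := g.conj_lead hu hpos hwr c'
    rw [e2] at c3
    exact g.lead_ne hpos hwr hs hs' hc' hd hz (Subgroup.one_mem _) (by rw [c3, mul_one])
  · exfalso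
    have h3 : g.X (wact T w r) c' = u⁻¹ * g.X s d * u := by rw [← c3]; group
    have h4 : g.X (wact T w r) c' ∈ D.posUnipotent F := by
      rw [h3]
      exact Subgroup.mul_mem _ (Subgroup.mul_mem _ (Subgroup.inv_mem _ hu) (g.X_mem_U hs hs' d)) hu
    have h5 := g.U_inf_V h4 (g.X_mem_V (by omega) _)
    exact hc' ((g.X_eq_one hwr).1 h5)

theorem X_central [CharP F 2] {r : ℕ} (hr : r < T.n) (hU : ∀ s, T.n / 2 ≤ s → s < T.n → T.chkEv r s = true) (c : F) :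
    ∀ u ∈ D.posUnipotent F, u * g.X r c = g.X r c * u := by
  intro u hu
  rw [g.U_eq] at hu
  unfold Uge at hu
  induction hu using Subgroup.closure_induction with
  | mem y hy =>
    obtain ⟨s, t, h1, h2, rfl⟩ := hy
    exact g.comm_even hr h2 (hU s h1 h2) _ _
  | one => simp
  | mul y y' _ _ h1 h2 => rw [mul_assoc, h2, ← mul_assoc, h1, mul_assoc]
  | inv y _ h1 =>
    rw [inv_mul_eq_iff_eq_mul, ← mul_assoc, h1, mul_assoc, mul_inv_cancel, mul_one]

end

end Good3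

end CfsgLib.Chev
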