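import Mathlib
import Cfsg.Agent.LibRtConj
import Cfsg.Agent.LibChevFix

set_option autoImplicit false
set_option linter.all false

/-! products of commuting root elements; conjugation by monomial elements (seat helper23) -/

namespace CfsgLib.Chev

open Cfsg.Lie Matrix

/-- coefficient function -/
def cf {F : Type*} [Field F] (L : List (ℕ × F)) (r : ℕ) : F := ((L.filter fun p => decide (p.1 = r)).map Prod.snd).sum

theorem cf_nil {F : Type*} [Field F] (r : ℕ) : cf ([] : List (ℕ × F)) r = 0 := rfl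

theorem cf_cons {F : Type*} [Field F] (p : ℕ × F) (L : List (ℕ × F)) (r : ℕ) :
    cf (p :: L) r = (if p.1 = r then p.2 else 0) + cf L r := by
  unfold cf
  by_cases h : p.1 = r
  · rw [List.filter_cons_of_pos (by simp [h]), List.map_cons, List.sum_cons, if_pos h]
  · rw [List.filter_cons_of_neg (by simp [h]), if_neg h, zero_add]

theorem cf_zero {F : Type*} [Field F] {L : List (ℕ × F)} {r : ℕ} (h : ∀ p ∈ L, p.1 ≠ r) : cf L r = 0 := by
  induction L with
  | nil => rfl
  | cons p L ih =>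
    rw [cf_cons, if_neg (h p List.mem_cons_self), zero_add, ih fun q hq => h q (List.mem_cons_of_mem _ hq)]

theorem cf_of_mem {F : Type*} [Field F] {L : List (ℕ × F)} (hn : (L.map Prod.fst).Nodup) {p : ℕ × F} (hp : p ∈ L) :
    cf L p.1 = p.2 := by
  induction L with
  | nil => simp at hp
  | cons q L ih =>
    rw [List.map_cons, List.nodup_cons] at hn
    rw [cf_cons]
    rcases List.mem_cons.1 hp with rfl | hp
    · rw [if_pos rfl, cf_zero, add_zero]
      intro q hq e
      exact hn.1 (List.mem_map.2 ⟨q, hq, e⟩)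
    · rw [if_neg, zero_add, ih hn.2 hp]
      intro e
      exact hn.1 (List.mem_map.2 ⟨p, hp, e.symm⟩)

theorem cf_filter_ne {F : Type*} [Field F] (L : List (ℕ × F)) {k r : ℕ} (h : r ≠ k) :
    cf (L.filter fun p => !decide (p.1 = k)) r = cf L r := by
  induction L with
  | nil => rfl
  | cons p L ih =>
    by_cases hk : p.1 = k
    · rw [List.filter_cons_of_neg (by simp [hk]), ih, cf_cons, if_neg (by rw [hk]; exact Ne.symm h), zero_add]
    · rw [List.filter_cons_of_pos (by simp [hk]), cf_cons, cf_cons, ih]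

namespace Good3

variable {D : ChevalleyDatum} {T : Tb} (g : Good3 D T)
include g

section
variable {F : Type*} [Field F]

/-- pairwise commuting root groups -/
def CommL (L : List (ℕ × F)) : Prop :=
  ∀ p ∈ L, ∀ q ∈ L, ∀ t u : F, g.X p.1 t * g.X q.1 u = g.X q.1 u * g.X p.1 t

variable {g} in
theorem CommL.sub {L L' : List (ℕ × F)} (h : g.CommL L) (hs : ∀ p ∈ L', p ∈ L) : g.CommL L' :=
  fun p hp q hq => h p (hs p hp) q (hs q hq)

theorem wd_nil : g.wd ([] : List (ℕ × F)) = 1 := rfl

theorem wd_cons (p : ℕ × F) (L : List (ℕ × F)) : g.wd (p :: L) = g.X p.1 p.2 * g.wd L := by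
  unfold wd; rw [List.map_cons, List.prod_cons]

theorem wd_pull {L : List (ℕ × F)} (hL : g.CommL L) (k : ℕ) :
    g.wd L = g.X k (cf L k) * g.wd (L.filter fun p => !decide (p.1 = k)) := by
  induction L with
  | nil => rw [cf_nil, X_zero]; simp [wd]
  | cons p L ih =>
    have hL' : g.CommL L := hL.sub fun q hq => List.mem_cons_of_mem _ hq
    rw [wd_cons, ih hL', cf_cons]
    by_cases hk : p.1 = k
    · rw [List.filter_cons_of_neg (by simp [hk]), if_pos hk, X_add, hk, mul_assoc]
    · rw [List.filter_cons_of_pos (by simp [hk]), if_neg hk, zero_add, wd_cons]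
      have : g.X p.1 p.2 * g.X k (cf L k) = g.X k (cf L k) * g.X p.1 p.2 := by
        by_cases h : ∃ q ∈ L, q.1 = k
        · obtain ⟨q, hq, rfl⟩ := h
          exact hL p List.mem_cons_self q (List.mem_cons_of_mem _ hq) _ _
        · push Not at h
          rw [cf_zero h, X_zero]; simp
      rw [← mul_assoc, this, mul_assoc]

theorem wd_pr : ∀ (m k : ℕ), T.n - k = m → T.n / 2 ≤ k → k ≤ T.n → ∀ L : List (ℕ × F),
    (∀ p ∈ L, k ≤ p.1 ∧ p.1 < T.n) → g.CommL L → g.wd L = g.pr k (T.n - k) (cf L) := by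
  intro m
  induction m with
  | zero =>
    intro k hm h1 h2 L hL hC
    have : L = [] := by
      rw [List.eq_nil_iff_forall_not_mem]
      intro p hp
      have := hL p hp
      omega
    rw [this, hm]
    simp [pr, wd]
  | succ m ih =>
    intro k hm h1 h2 L hL hC
    have hnk : T.n - k = (T.n - (k + 1)) + 1 := by omega
    rw [g.wd_pull hC k, hnk, pr_succ, ih (k + 1) (by omega) (by omega) (by omega)]
    · congr 1
      apply g.pr_congr
      intro r hr _
      exact cf_filter_ne L (by omega)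
    · intro p hp
      rw [List.mem_filter] at hp
      have h3 := hL p hp.1
      have h4 : p.1 ≠ k := by simpa using hp.2
      omega
    · exact hC.sub fun p hp => (List.mem_filter.1 hp).1

theorem wd_mem_U {L : List (ℕ × F)} (hL : ∀ p ∈ L, T.n / 2 ≤ p.1 ∧ p.1 < T.n) : g.wd L ∈ D.posUnipotent F := by
  unfold wd
  apply Subgroup.list_prod_mem
  intro x hx
  rw [List.mem_map] at hx
  obtain ⟨p, hp, rfl⟩ := hx
  exact g.X_mem_U (hL p hp).1 (hL p hp).2 _

theorem wd_mem_V {L : List (ℕ × F)} (hL : ∀ p ∈ L, p.1 < T.n / 2) : g.wd L ∈ D.negUnipotent F := by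
  unfold wd
  apply Subgroup.list_prod_mem
  intro x hx
  rw [List.mem_map] at hx
  obtain ⟨p, hp, rfl⟩ := hx
  exact g.X_mem_V (hL p hp) _

theorem wd_unique {L L' : List (ℕ × F)} (hL : ∀ p ∈ L, T.n / 2 ≤ p.1 ∧ p.1 < T.n) (hC : g.CommL L)
    (hL' : ∀ p ∈ L', T.n / 2 ≤ p.1 ∧ p.1 < T.n) (hC' : g.CommL L') (h : g.wd L = g.wd L') : cf L = cf L' := by
  have hev := g.even
  have h0 : T.n / 2 ≤ T.n := by omega
  have hmem : g.wd L ∈ g.Uge (F := F) (T.n / 2) := by rw [← g.U_eq]; exact g.wd_mem_U hL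
  obtain ⟨t, _, hu⟩ := g.Uge_expr _ (T.n / 2) rfl le_rfl h0 _ hmem
  have z : ∀ M : List (ℕ × F), (∀ p ∈ M, T.n / 2 ≤ p.1 ∧ p.1 < T.n) → ∀ r, ¬ (T.n / 2 ≤ r ∧ r < T.n) → cf M r = 0 := by
    intro M hM r hr
    apply cf_zero
    rintro p hp rfl
    exact hr (hM p hp)
  rw [hu (cf L) ⟨z L hL, g.wd_pr _ _ rfl le_rfl h0 L hL hC⟩,
    hu (cf L') ⟨z L' hL', by rw [h]; exact g.wd_pr _ _ rfl le_rfl h0 L' hL' hC'⟩]

theorem comm_wd {L : List (ℕ × F)} {x : GL D.Idx F} (h : ∀ p ∈ L, x * g.X p.1 p.2 = g.X p.1 p.2 * x) :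
    x * g.wd L = g.wd L * x := by
  induction L with
  | nil => rw [wd_nil]; simp
  | cons p L ih =>
    rw [wd_cons, ← mul_assoc, h p List.mem_cons_self, mul_assoc, ih fun q hq => h q (List.mem_cons_of_mem _ hq),
      mul_assoc]

theorem wd_split {L : List (ℕ × F)} (hL : g.CommL L) (P : ℕ × F → Bool) :
    g.wd L = g.wd (L.filter P) * g.wd (L.filter fun p => !P p) := by
  induction L with
  | nil => simp [wd]
  | cons p L ih =>
    have hL' : g.CommL L := hL.sub fun q hq => List.mem_cons_of_mem _ hq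
    rw [wd_cons, ih hL']
    by_cases hp : P p = true
    · rw [List.filter_cons_of_pos hp, List.filter_cons_of_neg (by simp [hp]), wd_cons, mul_assoc]
    · rw [List.filter_cons_of_neg hp, List.filter_cons_of_pos (by simpa using hp), wd_cons, ← mul_assoc, ← mul_assoc]
      congr 1
      apply g.comm_wd
      intro q hq
      exact hL p List.mem_cons_self q (List.mem_cons_of_mem _ (List.mem_filter.1 hq).1) _ _

theorem conj_X {w : List ℕ} (hw : VW T w) {h : GL D.Idx F} (hh : h ∈ D.diagonalSubgroup F) :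
    ∃ c : ℕ → F, (∀ r, c r ≠ 0) ∧ ∀ r < T.n, ∀ t, (g.nw w * h) * g.X r t * (g.nw w * h)⁻¹ = g.X (wact T w r) (c r * t) := by
  obtain ⟨χ, _, _, hX⟩ := g.H_X hh
  refine ⟨fun r => ((sgn T w r : ℤ) : F) * χ r, ?_, ?_⟩
  · intro r
    apply mul_ne_zero _ (Units.ne_zero _)
    rcases sgn_cases (T := T) w r with h | h <;> rw [h] <;> simp
  · intro r hr t
    have : (g.nw w * h) * g.X r t * (g.nw w * h)⁻¹ = g.nw w * (h * g.X r t * h⁻¹) * (g.nw w)⁻¹ := by group
    rw [this, hX r hr, g.nw_X hw hr, mul_assoc]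

theorem conj_wd {x : GL D.Idx F} {σ : ℕ → ℕ} {c : ℕ → F} (hX : ∀ r < T.n, ∀ t, x * g.X r t * x⁻¹ = g.X (σ r) (c r * t))
    {L : List (ℕ × F)} (hL : ∀ p ∈ L, p.1 < T.n) :
    x * g.wd L * x⁻¹ = g.wd (L.map fun p => (σ p.1, c p.1 * p.2)) := by
  induction L with
  | nil => rw [List.map_nil, wd_nil]; simp
  | cons p L ih =>
    rw [List.map_cons, wd_cons, wd_cons, ← ih fun q hq => hL q (List.mem_cons_of_mem _ hq),
      ← hX p.1 (hL p List.mem_cons_self)]
    group

theorem lemP {w : List ℕ} (hw : VW T w) {x : GL D.Idx F} {c : ℕ → F} (hc : ∀ r, c r ≠ 0)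
    (hX : ∀ r < T.n, ∀ t, x * g.X r t * x⁻¹ = g.X (wact T w r) (c r * t))
    {L L' : List (ℕ × F)} (hL : ∀ p ∈ L, T.n / 2 ≤ p.1 ∧ p.1 < T.n) (hC : g.CommL L) (hnd : (L.map Prod.fst).Nodup)
    (hL' : ∀ p ∈ L', T.n / 2 ≤ p.1 ∧ p.1 < T.n) (hC' : g.CommL L') (h : x * g.wd L * x⁻¹ = g.wd L') :
    ∀ p ∈ L, p.2 ≠ 0 → T.n / 2 ≤ wact T w p.1 ∧ cf L' (wact T w p.1) = c p.1 * p.2 := by
  classical
  set P : ℕ × F → Bool := fun p => decide (wact T w p.1 < T.n / 2) with hP
  have hs := g.wd_split hC P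
  have hl1 : ∀ p ∈ L.filter P, p.1 < T.n := fun p hp => (hL p (List.mem_filter.1 hp).1).2
  have hl2 : ∀ p ∈ L.filter (fun p => !P p), p.1 < T.n := fun p hp => (hL p (List.mem_filter.1 hp).1).2
  have h1 := g.conj_wd hX hl1
  have h2 := g.conj_wd hX hl2
  have hV : x * g.wd (L.filter P) * x⁻¹ ∈ D.negUnipotent F := by
    rw [h1]
    apply g.wd_mem_V
    intro p hp
    rw [List.mem_map] at hp
    obtain ⟨q, hq, rfl⟩ := hp
    have := (List.mem_filter.1 hq).2
    simpa [hP] using this
  have hpos2 : ∀ p ∈ (L.filter (fun p => !P p)).map (fun p => (wact T w p.1, c p.1 * p.2)), T.n / 2 ≤ p.1 ∧ p.1 < T.n := by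
    intro p hp
    rw [List.mem_map] at hp
    obtain ⟨q, hq, rfl⟩ := hp
    have h3 := (List.mem_filter.1 hq).2
    have h4 : T.n / 2 ≤ wact T w q.1 := by simpa [hP] using h3
    exact ⟨h4, g.wact_lt hw (hL q (List.mem_filter.1 hq).1).2⟩
  have hU2 : x * g.wd (L.filter (fun p => !P p)) * x⁻¹ ∈ D.posUnipotent F := by
    rw [h2]; exact g.wd_mem_U hpos2
  have hU1 : x * g.wd (L.filter P) * x⁻¹ ∈ D.posUnipotent F := by
    have e : x * g.wd (L.filter P) * x⁻¹ = (x * g.wd L * x⁻¹) * (x * g.wd (L.filter (fun p => !P p)) * x⁻¹)⁻¹ := by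
      rw [hs]; group
    rw [e, h]
    exact Subgroup.mul_mem _ (g.wd_mem_U hL') (Subgroup.inv_mem _ hU2)
  have h3 := g.U_inf_V hU1 hV
  have h4 : g.wd (L.filter P) = g.wd ([] : List (ℕ × F)) := by
    rw [wd_nil]
    have : g.wd (L.filter P) = x⁻¹ * (x * g.wd (L.filter P) * x⁻¹) * x := by group
    rw [this, h3]; group
  have h5 := g.wd_unique (L := L.filter P) (L' := []) (fun p hp => hL p (List.mem_filter.1 hp).1)
    (hC.sub fun p hp => (List.mem_filter.1 hp).1) (by simp) (by intro p hp; simp at hp) h4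
  have h6 : g.wd ((L.filter (fun p => !P p)).map (fun p => (wact T w p.1, c p.1 * p.2))) = g.wd L' := by
    rw [← h2, ← h, hs, h4, wd_nil, one_mul]
  have hCm : g.CommL ((L.filter (fun p => !P p)).map (fun p => (wact T w p.1, c p.1 * p.2))) := by
    intro p hp q hq t u
    rw [List.mem_map] at hp hq
    obtain ⟨p, hp, rfl⟩ := hp
    obtain ⟨q, hq, rfl⟩ := hq
    have hp' := (List.mem_filter.1 hp).1
    have hq' := (List.mem_filter.1 hq).1
    have e1 := hX p.1 (hL p hp').2 (t / c p.1)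
    have e2 := hX q.1 (hL q hq').2 (u / c q.1)
    rw [mul_div_cancel₀ _ (hc _)] at e1 e2
    have e3 := hC p hp' q hq' (t / c p.1) (u / c q.1)
    show g.X (wact T w p.1) t * g.X (wact T w q.1) u = g.X (wact T w q.1) u * g.X (wact T w p.1) t
    rw [← e1, ← e2]
    calc _ = x * (g.X p.1 (t / c p.1) * g.X q.1 (u / c q.1)) * x⁻¹ := by group
      _ = x * (g.X q.1 (u / c q.1) * g.X p.1 (t / c p.1)) * x⁻¹ := by rw [e3]
      _ = _ := by group
  have h7 := g.wd_unique hpos2 hCm hL' hC' h6
  have hndm : (((L.filter (fun p => !P p)).map (fun p => (wact T w p.1, c p.1 * p.2))).map Prod.fst).Nodup := by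
    rw [List.map_map]
    have hsub : ((L.filter (fun p => !P p)).map Prod.fst).Nodup :=
      hnd.sublist (List.Sublist.map _ List.filter_sublist)
    have e : ((L.filter (fun p => !P p)).map (Prod.fst ∘ fun p => (wact T w p.1, c p.1 * p.2))) =
        ((L.filter (fun p => !P p)).map Prod.fst).map (wact T w) := by
      rw [List.map_map]; rfl
    rw [e]
    apply List.Nodup.map_on _ hsub
    intro a ha b hb hab
    rw [List.mem_map] at ha hb
    obtain ⟨p, hp, rfl⟩ := ha
    obtain ⟨q, hq, rfl⟩ := hb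
    exact g.wact_inj hw (hL p (List.mem_filter.1 hp).1).2 (hL q (List.mem_filter.1 hq).1).2 hab
  intro p hp hp0
  have hpos : T.n / 2 ≤ wact T w p.1 := by
    by_contra hcon
    have hm : p ∈ L.filter P := List.mem_filter.2 ⟨hp, by simpa [hP] using hcon⟩
    have := cf_of_mem (hnd.sublist (List.Sublist.map _ List.filter_sublist)) hm
    rw [h5, cf_nil] at this
    exact hp0 this.symm
  refine ⟨hpos, ?_⟩
  rw [← h7]
  exact cf_of_mem hndm (p := (wact T w p.1, c p.1 * p.2))
    (List.mem_map.2 ⟨p, List.mem_filter.2 ⟨hp, by simpa [hP] using hpos⟩, rfl⟩)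

/-- stabilizer of a dominant combination -/
theorem stab_dom' {R : List ℕ} {m : ℕ → ℤ} (hR : ∀ r ∈ R, r < T.n) (hdom : ∀ i < T.l, 0 ≤ (R.map fun r => m r * T.A i r).sum)
    (hz : ∀ i < T.l, (R.map fun r => m r * T.A i r).sum = 0 → ∀ r ∈ R, T.A i r = 0)
    (K : Subgroup (GL D.Idx F)) (hK : ∀ i < T.l, (∀ r ∈ R, T.A i r = 0) → g.nn i ∈ K)
    (hKH : ∀ h ∈ D.diagonalSubgroup F, ∀ k ∈ K, h * k * h⁻¹ ∈ K) :
    ∀ (k : ℕ) (w : List ℕ), w.length = k → VW T w → (∀ r ∈ R, wact T w r = r) →
      ∃ x ∈ K, ∃ h ∈ D.diagonalSubgroup F, g.nw w = x * h := by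
  have hev := g.even
  have hpl : ∀ x : ℕ, (R.map fun r => m r * T.pair x r).sum =
      ∑ j ∈ Finset.range T.l, T.c x j * (R.map fun r => m r * T.A j r).sum := by
    intro x
    clear hR hdom hz hK
    induction R with
    | nil => simp
    | cons a R ih =>
      simp only [List.map_cons, List.sum_cons]
      rw [ih, pair_eq, Finset.mul_sum, ← Finset.sum_add_distrib]
      apply Finset.sum_congr rfl
      intro j _
      ring
  intro k
  induction k using Nat.strong_induction_on with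
  | _ k ih =>
    intro w hk hw hwr
    by_cases hall : ∀ i < T.l, T.n / 2 ≤ wact T w (T.sim i)
    · exact ⟨1, Subgroup.one_mem _, _, g.mem_H_of_pos hw hall, (one_mul _).symm⟩
    · push Not at hall
      obtain ⟨i, hi, hlt⟩ := hall
      obtain ⟨w', hw', hl', x, hx, e⟩ := g.exch' (F := F) hw hi hlt
      have hAi : ∀ r ∈ R, T.A i r = 0 := by
        apply hz i hi
        apply le_antisymm _ (hdom i hi)
        have h1 : (R.map fun r => m r * T.A i r) = R.map fun r => m r * T.pair (wact T w (T.sim i)) r := by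
          apply List.map_congr_left
          intro r hr
          congr 1
          conv_rhs => rw [← hwr r hr]
          rw [g.pair_wact hw (g.sim_lt hi) (hR r hr), g.pair_sim hi]
        rw [h1, hpl]
        apply Finset.sum_nonpos
        intro j hj
        rw [Finset.mem_range] at hj
        apply mul_nonpos_of_nonpos_of_nonneg _ (hdom j hj)
        have h3 := g.c_neg (show T.n - 1 - wact T w (T.sim i) < T.n by omega) hj
        have h4 : T.n - 1 - (T.n - 1 - wact T w (T.sim i)) = wact T w (T.sim i) := by omega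
        rw [h4] at h3
        rw [h3]
        have := g.c_nonneg (show T.n - 1 - wact T w (T.sim i) < T.n by omega) hj (by omega)
        omega
      have hwr' : ∀ r ∈ R, wact T w' r = r := by
        intro r hr
        have hrn := hR r hr
        have h1 := g.wact_congr (g.VW_append hw (g.VW_single hi)) hw' hx e r hrn
        rw [← h1, wact_append, wact_cons, wact_nil, g.w_fix hi hrn (hAi r hr), hwr r hr]
      obtain ⟨y, hy, h, hh, e2⟩ := ih w'.length (by omega) w' rfl hw' hwr'
      have e3 : g.nw w = g.nw (w ++ [i]) * (g.nn (F := F) i)⁻¹ := by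
        rw [nw_append, nw_cons, nw_nil]; group
      refine ⟨y * ((h * x) * (g.nn i)⁻¹ * (h * x)⁻¹), Subgroup.mul_mem _ hy
        (hKH _ (Subgroup.mul_mem _ hh hx) _ (Subgroup.inv_mem _ (hK i hi hAi))), h * x, Subgroup.mul_mem _ hh hx, ?_⟩
      rw [e3, e, e2]; group

/-- roots made negative by an element of the stabilizer -/
theorem neg_of_stab {R : List ℕ} {m : ℕ → ℤ} (hR : ∀ r ∈ R, r < T.n) (hdom : ∀ i < T.l, 0 ≤ (R.map fun r => m r * T.A i r).sum)
    {w : List ℕ} (hw : VW T w) (hwr : ∀ r ∈ R, wact T w r = r) {s : ℕ} (h1 : T.n / 2 ≤ s) (h2 : s < T.n)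
    (h3 : wact T w s < T.n / 2) : (R.map fun r => m r * T.pair s r).sum = 0 := by
  have hev := g.even
  have hpl : ∀ x : ℕ, (R.map fun r => m r * T.pair x r).sum =
      ∑ j ∈ Finset.range T.l, T.c x j * (R.map fun r => m r * T.A j r).sum := by
    intro x
    clear hR hdom hwr
    induction R with
    | nil => simp
    | cons a R ih =>
      simp only [List.map_cons, List.sum_cons]
      rw [ih, pair_eq, Finset.mul_sum, ← Finset.sum_add_distrib]
      apply Finset.sum_congr rfl
      intro j _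
      ring
  have e : (R.map fun r => m r * T.pair s r) = R.map fun r => m r * T.pair (wact T w s) r := by
    apply List.map_congr_left
    intro r hr
    congr 1
    conv_rhs => rw [← hwr r hr]
    rw [g.pair_wact hw h2 (hR r hr)]
  apply le_antisymm
  · rw [e, hpl]
    apply Finset.sum_nonpos
    intro j hj
    rw [Finset.mem_range] at hj
    apply mul_nonpos_of_nonpos_of_nonneg _ (hdom j hj)
    have h3' := g.c_neg (show T.n - 1 - wact T w s < T.n by omega) hj
    have h4 : T.n - 1 - (T.n - 1 - wact T w s) = wact T w s := by omega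
    rw [h4] at h3'
    rw [h3']
    have := g.c_nonneg (show T.n - 1 - wact T w s < T.n by omega) hj (by omega)
    omega
  · rw [hpl]
    apply Finset.sum_nonneg
    intro j hj
    rw [Finset.mem_range] at hj
    exact mul_nonneg (g.c_nonneg h2 hj h1) (hdom j hj)

end

end Good3

end CfsgLib.Chev
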