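import Mathlib
import Cfsg.Agent.LibF4C1

set_option autoImplicit false
set_option linter.all false
set_option maxRecDepth 100000

/-! centralizer of x_47(1) x_44(1) in F4, characteristic two (seat helper23) -/

namespace CfsgLib.F4C

open Cfsg.Lie Matrix CfsgLib.Chev

theorem n_F4 : tF4.n = 48 := by decide +kernel
theorem l_F4 : tF4.l = 4 := by decide +kernel
theorem A47 : ∀ k < 4, tF4.A k 47 = if k = 3 then 1 else 0 := by decide +kernel
theorem A44 : ∀ k < 4, tF4.A k 44 = if k = 0 then 1 else 0 := by decide +kernel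

theorem evAll : ((List.range 48).all fun s => !Nat.ble 24 s || (tF4.chkEv 47 s && tF4.chkEv 44 s)) = true := by decide +kernel
theorem evJ : ([1,2].all fun i => tF4.chkEv 47 (47 - tF4.sim i) && tF4.chkEv 44 (47 - tF4.sim i)) = true := by decide +kernel
theorem pne : tF4.pair 47 44 ≠ tF4.pair 44 47 := by decide +kernel

theorem ev47 (s : ℕ) (h1 : 24 ≤ s) (h2 : s < 48) : tF4.chkEv 47 s = true ∧ tF4.chkEv 44 s = true := by
  have h := List.all_eq_true.1 evAll s (List.mem_range.2 h2)
  rw [Nat.ble_eq_true_of_le h1] at h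
  simpa using h

section
variable {F : Type*} [Field F] [CharP F 2]

theorem comm47 (t u : F) : good3_F4.X 47 t * good3_F4.X 44 u = good3_F4.X 44 u * good3_F4.X 47 t := by
  have hn := n_F4
  exact good3_F4.comm_even (r := 44) (s := 47) (by omega) (by omega) (ev47 47 (by omega) (by omega)).2 u t

theorem commL47 (a b : F) : good3_F4.CommL [(47, a), (44, b)] := by
  intro p hp q hq t u
  simp only [List.mem_cons, List.not_mem_nil, or_false] at hp hq
  rcases hp with rfl | rfl <;> rcases hq with rfl | rfl
  · show good3_F4.X 47 t * good3_F4.X 47 u = good3_F4.X 47 u * good3_F4.X 47 t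
    rw [← Good3.X_add, ← Good3.X_add, add_comm]
  · exact comm47 t u
  · exact (comm47 u t).symm
  · show good3_F4.X 44 t * good3_F4.X 44 u = good3_F4.X 44 u * good3_F4.X 44 t
    rw [← Good3.X_add, ← Good3.X_add, add_comm]

theorem wd47 (a b : F) : good3_F4.wd [(47, a), (44, b)] = good3_F4.X 47 a * good3_F4.X 44 b := by
  simp [Good3.wd]

theorem pos47 (a b : F) : ∀ p ∈ [(47, a), (44, b)], tF4.n / 2 ≤ p.1 ∧ p.1 < tF4.n := by
  have hn := n_F4
  intro p hp
  simp only [List.mem_cons, List.not_mem_nil, or_false] at hp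
  rcases hp with rfl | rfl <;> dsimp only <;> omega

theorem cent47 :
    chevF4.group F ⊓ Subgroup.centralizer {good3_F4.X 47 (1 : F) * good3_F4.X 44 1} =
      chevF4.posUnipotent F ⊔ Subgroup.closure {x | ∃ i ∈ ({1, 2} : Set ℕ), i < tF4.l ∧ ∃ t : F, x = good3_F4.X (tF4.n - 1 - tF4.sim i) t} := by
  have hn := n_F4
  have hl := l_F4
  have hU47 := good3_F4.X_central (F := F) (r := 47) (by omega) (fun s hs hs' => (ev47 s (by omega) (by omega)).1) 1
  have hU44 := good3_F4.X_central (F := F) (r := 44) (by omega) (fun s hs hs' => (ev47 s (by omega) (by omega)).2) 1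
  apply good3_F4.cent_gen (F := F) {1, 2} {47, 44}
  · rintro r (rfl | rfl)
    · refine ⟨by omega, fun i hi => ?_⟩
      rw [A47 i (by omega)]; split_ifs <;> norm_num
    · refine ⟨by omega, fun i hi => ?_⟩
      rw [A44 i (by omega)]; split_ifs <;> norm_num
  · intro i hi h
    have h1 := h 47 (Or.inl rfl)
    have h2 := h 44 (Or.inr rfl)
    rw [A47 i (by omega)] at h1
    rw [A44 i (by omega)] at h2
    show i = 1 ∨ i = 2
    split_ifs at h1 h2 <;> omega
  · intro i hi h
    have h1 : i = 0 ∨ i = 3 := by
      by_contra h2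
      apply h
      show i = 1 ∨ i = 2
      omega
    rcases h1 with rfl | rfl
    · exact ⟨44, Or.inr rfl, fun k hk => A44 k (by omega)⟩
    · exact ⟨47, Or.inl rfl, fun k hk => A47 k (by omega)⟩
  · intro u hu
    rw [← mul_assoc, hU47 u hu, mul_assoc, hU44 u hu, mul_assoc]
  · intro w hw h hh e
    obtain ⟨c, hc, hX⟩ := good3_F4.conj_X (F := F) hw hh
    have e' : (good3_F4.nw w * h) * good3_F4.wd [(47, (1 : F)), (44, 1)] * (good3_F4.nw w * h)⁻¹ =
        good3_F4.wd [(47, (1 : F)), (44, 1)] := by rw [wd47]; exact e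
    have key := good3_F4.lemP hw hc hX (pos47 (1 : F) 1) (commL47 1 1) (by simp) (pos47 (1 : F) 1) (commL47 1 1) e'
    have hm : ∀ r, r ≠ 47 → r ≠ 44 → cf [(47, (1 : F)), (44, 1)] r = 0 := by
      intro r h1 h2
      apply cf_zero
      intro p hp
      simp only [List.mem_cons, List.not_mem_nil, or_false] at hp
      rcases hp with rfl | rfl
      · exact fun e => h1 e.symm
      · exact fun e => h2 e.symm
    have k1 := (key (47, 1) (by simp) one_ne_zero).2
    have k2 := (key (44, 1) (by simp) one_ne_zero).2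
    have m1 : wact tF4 w 47 = 47 ∨ wact tF4 w 47 = 44 := by
      by_contra hcon
      push Not at hcon
      rw [hm _ hcon.1 hcon.2] at k1
      exact mul_ne_zero (hc 47) one_ne_zero k1.symm
    have m2 : wact tF4 w 44 = 47 ∨ wact tF4 w 44 = 44 := by
      by_contra hcon
      push Not at hcon
      rw [hm _ hcon.1 hcon.2] at k2
      exact mul_ne_zero (hc 44) one_ne_zero k2.symm
    have hne : wact tF4 w 47 ≠ wact tF4 w 44 := by
      intro h1
      have := good3_F4.wact_inj hw (by omega) (by omega) h1
      omega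
    have hpair := good3_F4.pair_wact hw (r := 47) (s := 44) (by omega) (by omega)
    rcases m1 with m1 | m1
    · rcases m2 with m2 | m2
      · exact absurd (m1.trans m2.symm) hne
      · rintro r (rfl | rfl)
        · exact m1
        · exact m2
    · rcases m2 with m2 | m2
      · rw [m1, m2] at hpair
        exact absurd hpair.symm pne
      · exact absurd (m1.trans m2.symm) hne
  · rintro i hi hil t
    have h1 := List.all_eq_true.1 evJ i (by rcases hi with rfl | rfl <;> simp)
    rw [Bool.and_eq_true] at h1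
    have hs := good3_F4.sim_lt hil
    have hs2 := good3_F4.sim_pos hil
    have c1 := good3_F4.comm_even (F := F) (r := 47) (s := 47 - tF4.sim i) (by omega) (by omega) h1.1 1 t
    have c2 := good3_F4.comm_even (F := F) (r := 44) (s := 47 - tF4.sim i) (by omega) (by omega) h1.2 1 t
    have e : tF4.n - 1 - tF4.sim i = 47 - tF4.sim i := by omega
    rw [e, ← mul_assoc, c1, mul_assoc, c2, mul_assoc]
  · intro a e
    have e1 := good3_F4.hel_X (F := F) a (r := 47) (by omega) 1
    have e2 := good3_F4.hel_X (F := F) a (r := 44) (by omega) 1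
    have e3 : good3_F4.wd [(47, (hchi tF4 a 47 : F)), (44, (hchi tF4 a 44 : F))] = good3_F4.wd [(47, (1 : F)), (44, 1)] := by
      rw [wd47, wd47, ← e]
      rw [mul_one] at e1 e2
      rw [← e1, ← e2]; group
    have e4 := good3_F4.wd_unique (pos47 _ _) (commL47 _ _) (pos47 _ _) (commL47 _ _) e3
    rintro r (rfl | rfl)
    · have := congrFun e4 47
      simp [cf_cons, cf_nil] at this
      exact_mod_cast this
    · have := congrFun e4 44
      simp [cf_cons, cf_nil] at this
      exact_mod_cast this
  · exact Subgroup.mul_mem _ (good3_F4.X_mem_G _ _) (good3_F4.X_mem_G _ _)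

end

end CfsgLib.F4C
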