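import Mathlib
import Cfsg.Agent.LibF4C2

set_option autoImplicit false
set_option linter.all false
set_option maxRecDepth 100000

/-! towards the centralizer of x_39(1) x_45(1) in F4, characteristic two (seat helper23) -/

namespace CfsgLib.F4C

open Cfsg.Lie Matrix CfsgLib.Chev

/-- odd part of the commutator is `x_k(tu)` -/
noncomputable def chk1 (T : Tb) (r s k : ℕ) : Bool :=
  (!Nat.beq s r) && (!Nat.beq s (T.n - 1 - r)) &&
  decide (((Tb.commT T.ent r s).filter (fun c => decide (c.2.1 % 2 ≠ 0))).map (fun c => (c.1, c.2.2)) = [(k, 1, 1)])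
theorem a1 : chk1 tF4 34 39 44 = true := by decide +kernel
theorem a2 : chk1 tF4 27 39 40 = true := by decide +kernel
theorem a3 : chk1 tF4 26 45 47 = true := by decide +kernel
theorem a4 : chk1 tF4 25 45 46 = true := by decide +kernel

theorem b1 : ([(34,45), (33,39),(33,44),(33,45), (27,44),(27,45),(26,39),(26,40),(26,44),(25,39),(25,40),(25,44),(25,47)].all fun p : ℕ × ℕ => tF4.chkEv p.2 p.1) = true := by decide +kernel

theorem b2 : (List.range 48).all (fun r => !(Nat.beq r 14 || Nat.beq r 23 || (Nat.ble 24 r && !Nat.beq r 27 && !Nat.beq r 25 && !Nat.beq r 34 && !Nat.beq r 26)) || (tF4.chkEv 39 r && tF4.chkEv 45 r)) = true := by decide +kernel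

-- S6 commute
theorem b3 : ([39,40,44,45,46,47].all fun a => [39,40,44,45,46,47].all fun b => tF4.chkEv a b) = true := by decide +kernel
-- stability
theorem b4 : ((List.range 48).all fun r => !Nat.ble 24 r || [39,40,44,45,46,47].all fun s => Nat.beq r s || ((!Nat.beq s (tF4.n - 1 - r)) && (Tb.commT tF4.ent r s).all fun c => decide (c.2.1 % 2 = 0) || [40,44,46,47].contains c.1)) = true := by decide +kernel
-- Q normal
theorem b5 : ((List.range 48).all fun r => !Nat.ble 24 r || (List.range 48).all fun s => !(Nat.ble 28 s && !Nat.beq s 33 && !Nat.beq s 34) || Nat.beq s r || (!Nat.beq s (tF4.n - 1 - r) && (Tb.commT tF4.ent r s).all fun c => (Nat.ble 28 c.1 && Nat.ble c.1 47 && !Nat.beq c.1 33 && !Nat.beq c.1 34))) = true := by decide +kernel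
theorem b6 : ([39,40,44,45,46,47].all fun a => [39,40,44,45,46,47].all fun b => !(decide (tF4.pair a b = tF4.pair 39 45) && decide (tF4.pair b a = tF4.pair 45 39)) || (Nat.beq a 39 && Nat.beq b 45) || (Nat.beq a 45 && Nat.beq b 39)) = true := by decide +kernel
theorem b7 : ((List.range 48).any fun x => decide (tF4.pair x 45 = 2) && decide (tF4.pair 45 x = 1)) = true := by decide +kernel
theorem b8 : ((List.range 48).all fun x => !(decide (tF4.pair x 39 = 2) && decide (tF4.pair 39 x = 1))) = true := by decide +kernel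
theorem b9 : ((List.range 48).all fun x => !(Nat.ble 24 x) || !decide (3 * tF4.pair x 39 + 2 * tF4.pair x 45 = 0) || Nat.beq x 24 || Nat.beq x 33) = true := by decide +kernel
theorem b10 : ∀ k < 4, tF4.A k 39 = if k = 1 then -1 else if k = 2 then 1 else 0 := by decide +kernel
theorem b11 : ∀ k < 4, tF4.A k 45 = if k = 1 then 2 else if k = 2 then -1 else 0 := by decide +kernel
theorem b12 : tF4.sim 0 = 33 ∧ tF4.sim 1 = 27 ∧ tF4.sim 2 = 25 ∧ tF4.sim 3 = 24 := by decide +kernel

end CfsgLib.F4C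

namespace CfsgLib.Chev

theorem cf_append {F : Type*} [Field F] (L L' : List (ℕ × F)) (r : ℕ) : cf (L ++ L') r = cf L r + cf L' r := by
  induction L with
  | nil => rw [List.nil_append, cf_nil, zero_add]
  | cons p L ih => rw [List.cons_append, cf_cons, cf_cons, ih, add_assoc]

open Cfsg.Lie Matrix

namespace Good3

variable {D : ChevalleyDatum} {T : Tb} (g : Good3 D T)
include g

section
variable {F : Type*} [Field F]

theorem conj_comm {r s : ℕ} (hr : r < T.n) (hs : s < T.n) (h1 : s ≠ r) (h2 : s ≠ T.n - 1 - r) (t u : F) :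
    g.X r t * g.X s u * (g.X r t)⁻¹ =
      g.X s u * ((Tb.commT T.ent r s).map fun c => g.X c.1 ((c.2.1 : F) * t ^ c.2.2.1 * u ^ c.2.2.2)).prod := by
  have h := g.X_comm (F := F) hr hs h1 h2 (-t) u
  rw [neg_neg, X_neg] at h
  rw [mul_assoc, h]
  group

theorem odd_prod [CharP F 2] (t u : F) : ∀ (L : List (ℕ × ℤ × ℕ × ℕ)),
    (L.map fun c => g.X c.1 ((c.2.1 : F) * t ^ c.2.2.1 * u ^ c.2.2.2)).prod =
    g.wd (((L.filter (fun c => decide (c.2.1 % 2 ≠ 0))).map (fun c => (c.1, c.2.2))).map fun c => (c.1, t ^ c.2.1 * u ^ c.2.2)) := by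
  intro L
  induction L with
  | nil => simp [wd]
  | cons c L ih =>
    rw [List.map_cons, List.prod_cons, ih]
    by_cases h : c.2.1 % 2 = 0
    · rw [List.filter_cons_of_neg (by simpa using h)]
      have h6 : ((c.2.1 : ℤ) : F) = 0 := by
        rw [CharP.intCast_eq_zero_iff F 2]
        exact Int.dvd_of_emod_eq_zero h
      rw [h6, zero_mul, zero_mul, X_zero, one_mul]
    · rw [List.filter_cons_of_pos (by simpa using h), List.map_cons, List.map_cons, wd_cons]
      have h6 : ((c.2.1 : ℤ) : F) = 1 := by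
        have h7 : ((c.2.1 - 1 : ℤ) : F) = 0 := by
          rw [CharP.intCast_eq_zero_iff F 2]
          omega
        push_cast at h7
        exact sub_eq_zero.1 h7
      rw [h6, one_mul]

theorem conj_one [CharP F 2] {r s k : ℕ} (hr : r < T.n) (hs : s < T.n) (h : F4C.chk1 T r s k = true) (t u : F) :
    g.X r t * g.X s u * (g.X r t)⁻¹ = g.X s u * g.X k (t * u) := by
  unfold F4C.chk1 at h
  simp only [Bool.and_eq_true, Bool.not_eq_true', decide_eq_true_eq] at h
  obtain ⟨⟨h1, h2⟩, h3⟩ := h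
  rw [g.conj_comm hr hs (by rintro rfl; simp at h1) (by rintro rfl; simp at h2), odd_prod, h3]
  simp [wd]

theorem conj_ev [CharP F 2] {r s : ℕ} (hr : r < T.n) (hs : s < T.n) (h : T.chkEv s r = true) (t u : F) :
    g.X r t * g.X s u * (g.X r t)⁻¹ = g.X s u := by
  rw [g.comm_even hs hr h u t]; group

end

end Good3

end CfsgLib.Chev

namespace CfsgLib.F4C

open Cfsg.Lie Matrix CfsgLib.Chev

def S6 : List ℕ := [39,40,44,45,46,47]

theorem S6_pos {s : ℕ} (h : s ∈ S6) : 39 ≤ s ∧ s < 48 := by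
  simp only [S6, List.mem_cons, List.not_mem_nil, or_false] at h
  omega

section
variable {F : Type*} [Field F] [CharP F 2]

theorem commS6 {L : List (ℕ × F)} (hL : ∀ p ∈ L, p.1 ∈ S6) : good3_F4.CommL L := by
  have hn := n_F4
  intro p hp q hq t u
  have h1 := List.all_eq_true.1 (List.all_eq_true.1 b3 p.1 (hL p hp)) q.1 (hL q hq)
  have h2 := S6_pos (hL p hp)
  have h3 := S6_pos (hL q hq)
  exact (good3_F4.comm_even (r := p.1) (s := q.1) (by omega) (by omega) h1 t u).symm

theorem posS6 {L : List (ℕ × F)} (hL : ∀ p ∈ L, p.1 ∈ S6) : ∀ p ∈ L, tF4.n / 2 ≤ p.1 ∧ p.1 < tF4.n := by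
  have hn := n_F4
  intro p hp
  have h2 := S6_pos (hL p hp)
  omega

def PS (c d : F) (x : GL chevF4.Idx F) : Prop :=
  ∃ L : List (ℕ × F), (∀ p ∈ L, p.1 ∈ S6) ∧ cf L 39 = c ∧ cf L 45 = d ∧ x = good3_F4.wd L

theorem PS_unique {c d c' d' : F} {x : GL chevF4.Idx F} (h : PS c d x) (h' : PS c' d' x) : c = c' ∧ d = d' := by
  obtain ⟨L, h1, rfl, rfl, e⟩ := h
  obtain ⟨L', h1', rfl, rfl, e'⟩ := h'
  have := good3_F4.wd_unique (posS6 h1) (commS6 h1) (posS6 h1') (commS6 h1') (e.symm.trans e')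
  rw [this]; exact ⟨rfl, rfl⟩

theorem PS_conj1 {r : ℕ} (h1 : 24 ≤ r) (h2 : r < 48) (t : F) (s : ℕ) (hs : s ∈ S6) (u : F) :
    ∃ L : List (ℕ × F), (∀ p ∈ L, p.1 ∈ S6) ∧ cf L 39 = cf [(s, u)] 39 ∧ cf L 45 = cf [(s, u)] 45 ∧
      good3_F4.X r t * good3_F4.X s u * (good3_F4.X r t)⁻¹ = good3_F4.wd L := by
  have hn := n_F4
  have hs' := S6_pos hs
  have h := List.all_eq_true.1 b4 r (List.mem_range.2 h2)
  rw [Nat.ble_eq_true_of_le h1, Bool.not_true, Bool.false_or] at h
  have h := List.all_eq_true.1 h s hs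
  rw [Bool.or_eq_true, Bool.and_eq_true] at h
  by_cases hrs : r = s
  · subst hrs
    refine ⟨[(r, u)], by simpa using hs, rfl, rfl, ?_⟩
    rw [Good3.wd_cons, Good3.wd_nil]
    have : good3_F4.X r t * good3_F4.X r u = good3_F4.X r u * good3_F4.X r t := by
      rw [← Good3.X_add, ← Good3.X_add, add_comm]
    rw [this]; group
  · rcases h with h | ⟨h3, h4⟩
    · exact absurd (Nat.eq_of_beq_eq_true h) hrs
    · have e := good3_F4.conj_comm (F := F) (r := r) (s := s) (by omega) (by omega) (Ne.symm hrs)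
        (by rintro rfl; simp at h3) t u
      rw [good3_F4.odd_prod, ← Good3.wd_cons good3_F4 (s, u)] at e
      have hmem : ∀ p ∈ (((Tb.commT tF4.ent r s).filter (fun c => decide (c.2.1 % 2 ≠ 0))).map (fun c => (c.1, c.2.2))).map
          (fun c : ℕ × ℕ × ℕ => (c.1, t ^ c.2.1 * u ^ c.2.2)), p.1 = 40 ∨ p.1 = 44 ∨ p.1 = 46 ∨ p.1 = 47 := by
        intro p hp
        rw [List.mem_map] at hp
        obtain ⟨q, hq, rfl⟩ := hp
        rw [List.mem_map] at hq
        obtain ⟨c, hc, rfl⟩ := hq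
        rw [List.mem_filter] at hc
        have h5 := List.all_eq_true.1 h4 c hc.1
        have h6 : c.2.1 % 2 ≠ 0 := by simpa using hc.2
        rw [Bool.or_eq_true, decide_eq_true_eq] at h5
        have h7 := h5.resolve_left h6
        simpa using h7
      refine ⟨_, ?_, ?_, ?_, e⟩
      · intro p hp
        rcases List.mem_cons.1 hp with rfl | hp
        · exact hs
        · rcases hmem p hp with h | h | h | h <;> rw [h] <;> simp [S6]
      · rw [cf_cons, cf_cons, cf_nil, cf_zero]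
        intro p hp
        rcases hmem p hp with h | h | h | h <;> rw [h] <;> decide
      · rw [cf_cons, cf_cons, cf_nil, cf_zero]
        intro p hp
        rcases hmem p hp with h | h | h | h <;> rw [h] <;> decide

theorem PS_conjr {r : ℕ} (h1 : 24 ≤ r) (h2 : r < 48) (t : F) {c d : F} {x : GL chevF4.Idx F} (hx : PS c d x) :
    PS c d (good3_F4.X r t * x * (good3_F4.X r t)⁻¹) := by
  obtain ⟨L, hL, rfl, rfl, rfl⟩ := hx
  induction L with
  | nil => exact ⟨[], hL, rfl, rfl, by rw [Good3.wd_nil]; simp⟩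
  | cons p L ih =>
    obtain ⟨L', hL', e1, e2, e3⟩ := ih fun q hq => hL q (List.mem_cons_of_mem _ hq)
    obtain ⟨M, hM, f1, f2, f3⟩ := PS_conj1 h1 h2 t p.1 (hL p List.mem_cons_self) p.2
    refine ⟨M ++ L', ?_, ?_, ?_, ?_⟩
    · intro q hq
      rcases List.mem_append.1 hq with hq | hq
      · exact hM q hq
      · exact hL' q hq
    · rw [cf_append, e1, f1, cf_cons, cf_cons, cf_nil, add_zero]
    · rw [cf_append, e2, f2, cf_cons, cf_cons, cf_nil, add_zero]
    · rw [Good3.wd_append, ← f3, ← e3, Good3.wd_cons]; group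

theorem U_list {u : GL chevF4.Idx F} (hu : u ∈ chevF4.posUnipotent F) :
    ∃ t : ℕ → F, u = good3_F4.pr 24 24 t := by
  have hn := n_F4
  rw [good3_F4.U_eq] at hu
  obtain ⟨t, ⟨_, h⟩, _⟩ := good3_F4.Uge_expr _ (tF4.n / 2) rfl le_rfl (by omega) u hu
  refine ⟨t, ?_⟩
  rw [h, hn]

theorem PS_conj {u : GL chevF4.Idx F} (hu : u ∈ chevF4.posUnipotent F) {c d : F} {x : GL chevF4.Idx F} (hx : PS c d x) :
    PS c d (u * x * u⁻¹) := by
  obtain ⟨t, rfl⟩ := U_list hu
  have key : ∀ (L : List (ℕ × F)), (∀ p ∈ L, 24 ≤ p.1 ∧ p.1 < 48) → PS c d (good3_F4.wd L * x * (good3_F4.wd L)⁻¹) := by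
    intro L
    induction L with
    | nil => intro _; rw [Good3.wd_nil]; simpa using hx
    | cons p L ih =>
      intro hL
      have h1 := ih fun q hq => hL q (List.mem_cons_of_mem _ hq)
      have h2 := PS_conjr (hL p List.mem_cons_self).1 (hL p List.mem_cons_self).2 p.2 h1
      have e : good3_F4.wd (p :: L) * x * (good3_F4.wd (p :: L))⁻¹ =
          good3_F4.X p.1 p.2 * (good3_F4.wd L * x * (good3_F4.wd L)⁻¹) * (good3_F4.X p.1 p.2)⁻¹ := by
        rw [Good3.wd_cons]; group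
      rw [e]; exact h2
  apply key
  intro p hp
  rw [List.mem_map] at hp
  obtain ⟨r, hr, rfl⟩ := hp
  rw [List.mem_range'_1] at hr
  exact ⟨hr.1, hr.2⟩

theorem PS_norm {c d : F} {x : GL chevF4.Idx F} (hx : PS c d x) : ∃ f : ℕ → F, f 39 = c ∧ f 45 = d ∧
    x = good3_F4.wd (S6.map fun r => (r, f r)) := by
  obtain ⟨L, hL, rfl, rfl, rfl⟩ := hx
  have hn := n_F4
  refine ⟨cf L, rfl, rfl, ?_⟩
  have hM : ∀ p ∈ S6.map fun r => (r, cf L r), p.1 ∈ S6 := by
    intro p hp
    rw [List.mem_map] at hp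
    obtain ⟨r, hr, rfl⟩ := hp
    exact hr
  rw [good3_F4.wd_pr _ (tF4.n / 2) rfl le_rfl (by omega) _ (posS6 hL) (commS6 hL),
    good3_F4.wd_pr _ (tF4.n / 2) rfl le_rfl (by omega) _ (posS6 hM) (commS6 hM)]
  apply good3_F4.pr_congr
  intro r _ _
  by_cases hr : r ∈ S6
  · have h1 : (r, cf L r) ∈ S6.map fun r => (r, cf L r) := List.mem_map.2 ⟨r, hr, rfl⟩
    exact (cf_of_mem (by simp [S6]) h1).symm
  · rw [cf_zero, cf_zero]
    · rintro p hp rfl; exact hr (hM p hp)
    · rintro p hp rfl; exact hr (hL p hp)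

end

end CfsgLib.F4C
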