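import Mathlib
import Cfsg.Agent.LibF4C3

set_option autoImplicit false
set_option linter.all false
set_option maxRecDepth 100000

/-! the centralizer of x_39(1) x_45(1) in F4, characteristic two (seat helper23) -/

namespace CfsgLib.F4C

open Cfsg.Lie Matrix CfsgLib.Chev

section
variable {F : Type*} [Field F] [CharP F 2]

def Qs (s : ℕ) : Prop := 28 ≤ s ∧ s < 48 ∧ s ≠ 33 ∧ s ≠ 34

variable (F) in
def Q : Subgroup (GL chevF4.Idx F) := Subgroup.closure {x | ∃ (s : ℕ) (t : F), Qs s ∧ x = good3_F4.X s t}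

omit [CharP F 2] in
theorem X_mem_Q' {s : ℕ} (hs : Qs s) (t : F) : good3_F4.X s t ∈ Q F := Subgroup.subset_closure ⟨s, t, hs, rfl⟩

omit [CharP F 2] in
theorem Q_conj {r : ℕ} (h1 : 24 ≤ r) (h2 : r < 48) (t : F) {q : GL chevF4.Idx F} (hq : q ∈ Q F) :
    good3_F4.X r t * q * (good3_F4.X r t)⁻¹ ∈ Q F := by
  have hn := n_F4
  have hle : Q F ≤ (Q F).comap (MulAut.conj (good3_F4.X r t)).toMonoidHom := by
    conv_lhs => unfold Q
    rw [Subgroup.closure_le]
    rintro x ⟨s, u, hs, rfl⟩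
    show good3_F4.X r t * good3_F4.X s u * (good3_F4.X r t)⁻¹ ∈ Q F
    by_cases hrs : s = r
    · subst hrs
      have : good3_F4.X s t * good3_F4.X s u = good3_F4.X s u * good3_F4.X s t := by
        rw [← Good3.X_add, ← Good3.X_add, add_comm]
      rw [this, mul_assoc, mul_inv_cancel, mul_one]
      exact X_mem_Q' hs u
    · have h := List.all_eq_true.1 b5 r (List.mem_range.2 h2)
      rw [Nat.ble_eq_true_of_le h1, Bool.not_true, Bool.false_or] at h
      have h := List.all_eq_true.1 h s (List.mem_range.2 hs.2.1)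
      have e1 : (Nat.ble 28 s && !Nat.beq s 33 && !Nat.beq s 34) = true := by
        rw [Bool.and_eq_true, Bool.and_eq_true, Bool.not_eq_true', Bool.not_eq_true']
        refine ⟨⟨Nat.ble_eq_true_of_le hs.1, ?_⟩, ?_⟩
        · rw [Bool.eq_false_iff]; intro h; exact hs.2.2.1 (Nat.eq_of_beq_eq_true h)
        · rw [Bool.eq_false_iff]; intro h; exact hs.2.2.2 (Nat.eq_of_beq_eq_true h)
      rw [e1, Bool.not_true, Bool.false_or, Bool.or_eq_true, Bool.and_eq_true] at h
      rcases h with h | ⟨h3, h4⟩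
      · exact absurd (Nat.eq_of_beq_eq_true h) hrs
      · rw [good3_F4.conj_comm (by omega) (by have := hs.2.1; omega) hrs (by rintro rfl; simp at h3)]
        apply Subgroup.mul_mem _ (X_mem_Q' hs u)
        apply Subgroup.list_prod_mem
        intro x hx
        rw [List.mem_map] at hx
        obtain ⟨c, hc, rfl⟩ := hx
        have h5 := List.all_eq_true.1 h4 c hc
        simp only [Bool.and_eq_true, Bool.not_eq_true'] at h5
        obtain ⟨⟨⟨h5, h6⟩, h7⟩, h8⟩ := h5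
        refine X_mem_Q' ⟨Nat.le_of_ble_eq_true h5, ?_, ?_, ?_⟩ _
        · have := Nat.le_of_ble_eq_true h6; omega
        · rintro h; rw [h] at h7; exact absurd h7 (by decide)
        · rintro h; rw [h] at h8; exact absurd h8 (by decide)
  exact hle hq

omit [CharP F 2] in
theorem Q_conj' {r : ℕ} (h1 : 24 ≤ r) (h2 : r < 48) (t : F) {q : GL chevF4.Idx F} (hq : q ∈ Q F) :
    (good3_F4.X r t)⁻¹ * q * good3_F4.X r t ∈ Q F := by
  have := Q_conj h1 h2 (-t) hq
  rw [Good3.X_neg, inv_inv] at this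
  exact this

omit [CharP F 2] in
theorem pr_Q {k m : ℕ} (t : ℕ → F) (h : ∀ r, k ≤ r → r < k + m → Qs r) : good3_F4.pr k m t ∈ Q F := by
  unfold Good3.pr Good3.wd
  apply Subgroup.list_prod_mem
  intro x hx
  rw [List.mem_map] at hx
  obtain ⟨p, hp, rfl⟩ := hx
  rw [List.mem_map] at hp
  obtain ⟨r, hr, rfl⟩ := hp
  rw [List.mem_range'_1] at hr
  exact X_mem_Q' (h r hr.1 hr.2) _

omit [CharP F 2] in
theorem pr_append (k m m' : ℕ) (t : ℕ → F) : good3_F4.pr k (m + m') t = good3_F4.pr k m t * good3_F4.pr (k + m) m' t := by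
  unfold Good3.pr
  have : List.range' k (m + m') = List.range' k m ++ List.range' (k + m) m' := by
    have := List.range'_append (s := k) (m := m) (n := m') (step := 1)
    rw [one_mul] at this
    exact this.symm
  rw [this, List.map_append, Good3.wd_append]

omit [CharP F 2] in
theorem U_form {u : GL chevF4.Idx F} (hu : u ∈ chevF4.posUnipotent F) :
    ∃ (a1 a2 a3 a4 a5 a6 : F) (q : GL chevF4.Idx F), q ∈ Q F ∧
      u = good3_F4.X 24 a1 * (good3_F4.X 25 a2 * good3_F4.X 26 a3 * good3_F4.X 27 a4 * good3_F4.X 33 a5 * good3_F4.X 34 a6) * q := by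
  have hn := n_F4
  rw [good3_F4.U_eq] at hu
  obtain ⟨t, ⟨_, h⟩, _⟩ := good3_F4.Uge_expr _ (tF4.n / 2) rfl le_rfl (by omega) u hu
  have h : u = good3_F4.pr 24 24 t := by rw [h, hn]
  have e : good3_F4.pr 24 24 t = good3_F4.X 24 (t 24) * (good3_F4.X 25 (t 25) * (good3_F4.X 26 (t 26) * (good3_F4.X 27 (t 27) *
      (good3_F4.pr 28 5 t * (good3_F4.X 33 (t 33) * (good3_F4.X 34 (t 34) * good3_F4.pr 35 13 t)))))) := by
    rw [Good3.pr_succ, Good3.pr_succ, Good3.pr_succ, Good3.pr_succ]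
    have e2 : good3_F4.pr 28 20 t = good3_F4.pr 28 5 t * good3_F4.pr 33 15 t := pr_append 28 5 15 t
    show good3_F4.X 24 (t 24) * (good3_F4.X 25 (t 25) * (good3_F4.X 26 (t 26) * (good3_F4.X 27 (t 27) * good3_F4.pr 28 20 t))) = _
    have e3 : good3_F4.pr 33 15 t = good3_F4.X 33 (t 33) * (good3_F4.X 34 (t 34) * good3_F4.pr 35 13 t) := by
      rw [Good3.pr_succ, Good3.pr_succ]
    rw [e2, e3]
  have hq1 : good3_F4.pr 28 5 t ∈ Q F := pr_Q t fun r h1 h2 => ⟨by omega, by omega, by omega, by omega⟩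
  have hq2 : good3_F4.pr 35 13 t ∈ Q F := pr_Q t fun r h1 h2 => ⟨by omega, by omega, by omega, by omega⟩
  refine ⟨t 24, t 25, t 26, t 27, t 33, t 34, ((good3_F4.X 34 (t 34))⁻¹ * ((good3_F4.X 33 (t 33))⁻¹ * good3_F4.pr 28 5 t * good3_F4.X 33 (t 33)) *
    good3_F4.X 34 (t 34)) * good3_F4.pr 35 13 t,
    Subgroup.mul_mem _ (Q_conj' (by omega) (by omega) _ (Q_conj' (by omega) (by omega) _ hq1)) hq2, ?_⟩
  rw [h, e]; group

/-- generators of the centralizer -/
def Es (r : ℕ) : Prop := r = 14 ∨ r = 23 ∨ (24 ≤ r ∧ r < 48 ∧ r ≠ 27 ∧ r ≠ 25 ∧ r ≠ 34 ∧ r ≠ 26)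

variable (F) in
def E : Subgroup (GL chevF4.Idx F) := Subgroup.closure {x | ∃ (s : ℕ) (t : F), Es s ∧ x = good3_F4.X s t}

variable (F) in
def K : Subgroup (GL chevF4.Idx F) := Subgroup.closure {x | ∃ (s : ℕ) (t : F), (s = 14 ∨ s = 23 ∨ s = 24 ∨ s = 33) ∧ x = good3_F4.X s t}

variable (F) in
noncomputable def vv : GL chevF4.Idx F := good3_F4.X 39 1 * good3_F4.X 45 1

theorem Es_ev {r : ℕ} (h : Es r) : r < 48 ∧ tF4.chkEv 39 r = true ∧ tF4.chkEv 45 r = true := by
  have hr : r < 48 := by rcases h with h | h | h <;> omega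
  have h1 := List.all_eq_true.1 b2 r (List.mem_range.2 hr)
  have e : (Nat.beq r 14 || Nat.beq r 23 || (Nat.ble 24 r && !Nat.beq r 27 && !Nat.beq r 25 && !Nat.beq r 34 && !Nat.beq r 26)) = true := by
    rcases h with rfl | rfl | ⟨h1, h2, h3, h4, h5, h6⟩
    · decide
    · decide
    · rw [Bool.or_eq_true]
      right
      simp only [Bool.and_eq_true, Bool.not_eq_true']
      refine ⟨⟨⟨⟨Nat.ble_eq_true_of_le h1, ?_⟩, ?_⟩, ?_⟩, ?_⟩ <;> rw [Bool.eq_false_iff] <;> intro h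
      · exact h3 (Nat.eq_of_beq_eq_true h)
      · exact h4 (Nat.eq_of_beq_eq_true h)
      · exact h5 (Nat.eq_of_beq_eq_true h)
      · exact h6 (Nat.eq_of_beq_eq_true h)
  rw [e, Bool.not_true, Bool.false_or, Bool.and_eq_true] at h1
  exact ⟨hr, h1⟩

theorem E_comm {x : GL chevF4.Idx F} (hx : x ∈ E F) : x * vv F = vv F * x := by
  have hn := n_F4
  unfold E at hx
  induction hx using Subgroup.closure_induction with
  | mem y hy =>
    obtain ⟨s, t, hs, rfl⟩ := hy
    obtain ⟨h1, h2, h3⟩ := Es_ev hs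
    have c1 := good3_F4.comm_even (F := F) (r := 39) (s := s) (by omega) (by omega) h2 1 t
    have c2 := good3_F4.comm_even (F := F) (r := 45) (s := s) (by omega) (by omega) h3 1 t
    unfold vv
    rw [← mul_assoc, c1, mul_assoc, c2, mul_assoc]
  | one => simp
  | mul y y' _ _ h1 h2 => rw [mul_assoc, h2, ← mul_assoc, h1, mul_assoc]
  | inv y _ h1 =>
    rw [inv_mul_eq_iff_eq_mul, ← mul_assoc, h1, mul_assoc, mul_inv_cancel, mul_one]

omit [CharP F 2] in
theorem K_le_E : K F ≤ E F := by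
  unfold K
  rw [Subgroup.closure_le]
  rintro x ⟨s, t, hs, rfl⟩
  refine Subgroup.subset_closure ⟨s, t, ?_, rfl⟩
  rcases hs with rfl | rfl | rfl | rfl
  · exact Or.inl rfl
  · exact Or.inr (Or.inl rfl)
  · exact Or.inr (Or.inr (by decide))
  · exact Or.inr (Or.inr (by decide))

omit [CharP F 2] in
theorem Q_le_E : Q F ≤ E F := by
  unfold Q
  rw [Subgroup.closure_le]
  rintro x ⟨s, t, hs, rfl⟩
  refine Subgroup.subset_closure ⟨s, t, ?_, rfl⟩
  obtain ⟨h1, h2, h3, h4⟩ := hs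
  exact Or.inr (Or.inr ⟨by omega, h2, by omega, by omega, h4, by omega⟩)

theorem vv_wd : vv F = good3_F4.wd [(39, 1), (45, 1)] := by
  rw [Good3.wd_cons, Good3.wd_cons, Good3.wd_nil, mul_one]; rfl

theorem vv_PS : PS (1 : F) 1 (vv F) := by
  refine ⟨[(39, 1), (45, 1)], ?_, ?_, ?_, vv_wd⟩
  · intro p hp
    simp only [List.mem_cons, List.not_mem_nil, or_false] at hp
    rcases hp with rfl | rfl <;> simp [S6]
  · simp [cf_cons, cf_nil]
  · simp [cf_cons, cf_nil]

theorem y_conj (a2 a3 a4 a5 a6 : F) :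
    (good3_F4.X 25 a2 * good3_F4.X 26 a3 * good3_F4.X 27 a4 * good3_F4.X 33 a5 * good3_F4.X 34 a6) * vv F *
    (good3_F4.X 25 a2 * good3_F4.X 26 a3 * good3_F4.X 27 a4 * good3_F4.X 33 a5 * good3_F4.X 34 a6)⁻¹ =
      good3_F4.wd [(39, 1), (40, a4), (44, a6), (45, 1), (46, a2), (47, a3)] := by
  have hn := n_F4
  have hb : ∀ r s, (r, s) ∈ [(34,45), (33,39),(33,44),(33,45), (27,44),(27,45),(26,39),(26,40),(26,44),(25,39),(25,40),(25,44),(25,47)] →
      r < 48 → s < 48 → ∀ t u : F, good3_F4.X r t * good3_F4.X s u * (good3_F4.X r t)⁻¹ = good3_F4.X s u := by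
    intro r s h h1 h2 t u
    have := List.all_eq_true.1 b1 (r, s) h
    exact good3_F4.conj_ev (by omega) (by omega) this t u
  have c1 := good3_F4.conj_one (F := F) (r := 34) (s := 39) (by omega) (by omega) a1 a6 1
  have c2 := good3_F4.conj_one (F := F) (r := 27) (s := 39) (by omega) (by omega) CfsgLib.F4C.a2 a4 1
  have c3 := good3_F4.conj_one (F := F) (r := 26) (s := 45) (by omega) (by omega) CfsgLib.F4C.a3 a3 1
  have c4 := good3_F4.conj_one (F := F) (r := 25) (s := 45) (by omega) (by omega) CfsgLib.F4C.a4 a2 1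
  rw [mul_one] at c1 c2 c3 c4
  have d1 := hb 34 45 (by simp) (by omega) (by omega) a6 1
  have d2 := hb 33 39 (by simp) (by omega) (by omega) a5 1
  have d3 := hb 33 44 (by simp) (by omega) (by omega) a5 a6
  have d4 := hb 33 45 (by simp) (by omega) (by omega) a5 1
  have d5 := hb 27 44 (by simp) (by omega) (by omega) a4 a6
  have d6 := hb 27 45 (by simp) (by omega) (by omega) a4 1
  have d7 := hb 26 39 (by simp) (by omega) (by omega) a3 1
  have d8 := hb 26 40 (by simp) (by omega) (by omega) a3 a4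
  have d9 := hb 26 44 (by simp) (by omega) (by omega) a3 a6
  have d10 := hb 25 39 (by simp) (by omega) (by omega) a2 1
  have d11 := hb 25 40 (by simp) (by omega) (by omega) a2 a4
  have d12 := hb 25 44 (by simp) (by omega) (by omega) a2 a6
  have d13 := hb 25 47 (by simp) (by omega) (by omega) a2 a3
  have s1 : MulAut.conj (good3_F4.X 34 a6) (vv F) = good3_F4.X 39 1 * good3_F4.X 44 a6 * good3_F4.X 45 1 := by
    unfold vv
    rw [map_mul, MulAut.conj_apply, MulAut.conj_apply, c1, d1]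
  have s2 : MulAut.conj (good3_F4.X 33 a5) (good3_F4.X 39 1 * good3_F4.X 44 a6 * good3_F4.X 45 1) =
      good3_F4.X 39 1 * good3_F4.X 44 a6 * good3_F4.X 45 1 := by
    rw [map_mul, map_mul, MulAut.conj_apply, MulAut.conj_apply, MulAut.conj_apply, d2, d3, d4]
  have s3 : MulAut.conj (good3_F4.X 27 a4) (good3_F4.X 39 1 * good3_F4.X 44 a6 * good3_F4.X 45 1) =
      good3_F4.X 39 1 * good3_F4.X 40 a4 * good3_F4.X 44 a6 * good3_F4.X 45 1 := by
    rw [map_mul, map_mul, MulAut.conj_apply, MulAut.conj_apply, MulAut.conj_apply, c2, d5, d6]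
  have s4 : MulAut.conj (good3_F4.X 26 a3) (good3_F4.X 39 1 * good3_F4.X 40 a4 * good3_F4.X 44 a6 * good3_F4.X 45 1) =
      good3_F4.X 39 1 * good3_F4.X 40 a4 * good3_F4.X 44 a6 * (good3_F4.X 45 1 * good3_F4.X 47 a3) := by
    rw [map_mul, map_mul, map_mul, MulAut.conj_apply, MulAut.conj_apply, MulAut.conj_apply, MulAut.conj_apply, d7, d8, d9, c3]
  have s5 : MulAut.conj (good3_F4.X 25 a2) (good3_F4.X 39 1 * good3_F4.X 40 a4 * good3_F4.X 44 a6 * (good3_F4.X 45 1 * good3_F4.X 47 a3)) =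
      good3_F4.X 39 1 * good3_F4.X 40 a4 * good3_F4.X 44 a6 * (good3_F4.X 45 1 * good3_F4.X 46 a2 * good3_F4.X 47 a3) := by
    rw [map_mul, map_mul, map_mul, map_mul, MulAut.conj_apply, MulAut.conj_apply, MulAut.conj_apply, MulAut.conj_apply,
      MulAut.conj_apply, d10, d11, d12, c4, d13]
  rw [← MulAut.conj_apply, map_mul, map_mul, map_mul, map_mul, MulAut.mul_apply, MulAut.mul_apply, MulAut.mul_apply,
    MulAut.mul_apply, s1, s2, s3, s4, s5]
  simp only [Good3.wd_cons, Good3.wd_nil, mul_one, mul_assoc]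

/-- elements of U commuting with v -/
theorem CU_le {u : GL chevF4.Idx F} (hu : u ∈ chevF4.posUnipotent F) (h : u * vv F = vv F * u) : u ∈ E F := by
  obtain ⟨b1, b2, b3, b4, b5, b6, q, hq, rfl⟩ := U_form hu
  have hX24 : good3_F4.X 24 b1 ∈ E F := Subgroup.subset_closure ⟨24, b1, Or.inr (Or.inr (by decide)), rfl⟩
  have hX33 : good3_F4.X 33 b5 ∈ E F := Subgroup.subset_closure ⟨33, b5, Or.inr (Or.inr (by decide)), rfl⟩
  have hqE := Q_le_E hq
  have k1 := E_comm (Subgroup.inv_mem _ hX24)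
  have k2 := E_comm (Subgroup.inv_mem _ hqE)
  set y := good3_F4.X 25 b2 * good3_F4.X 26 b3 * good3_F4.X 27 b4 * good3_F4.X 33 b5 * good3_F4.X 34 b6 with hy
  have k3 : y * vv F * y⁻¹ = vv F := by
    have e1 : y * vv F * y⁻¹ = (good3_F4.X 24 b1)⁻¹ * ((good3_F4.X 24 b1 * y * q) * (q⁻¹ * vv F) * q * (good3_F4.X 24 b1 * y * q)⁻¹) * good3_F4.X 24 b1 := by
      group
    rw [e1, k2]
    have e2 : (good3_F4.X 24 b1)⁻¹ * ((good3_F4.X 24 b1 * y * q) * (vv F * q⁻¹) * q * (good3_F4.X 24 b1 * y * q)⁻¹) * good3_F4.X 24 b1 =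
      (good3_F4.X 24 b1)⁻¹ * (((good3_F4.X 24 b1 * y * q) * vv F) * (good3_F4.X 24 b1 * y * q)⁻¹) * good3_F4.X 24 b1 := by group
    rw [e2, h]
    have e3 : (good3_F4.X 24 b1)⁻¹ * (vv F * (good3_F4.X 24 b1 * y * q) * (good3_F4.X 24 b1 * y * q)⁻¹) * good3_F4.X 24 b1 =
      ((good3_F4.X 24 b1)⁻¹ * vv F) * good3_F4.X 24 b1 := by group
    rw [e3, k1]; group
  rw [hy, y_conj, vv_wd] at k3
  have hS1 : ∀ p ∈ [(39, (1 : F)), (40, b4), (44, b6), (45, 1), (46, b2), (47, b3)], p.1 ∈ S6 := by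
    intro p hp
    simp only [List.mem_cons, List.not_mem_nil, or_false] at hp
    rcases hp with rfl | rfl | rfl | rfl | rfl | rfl <;> simp [S6]
  have hS2 : ∀ p ∈ [(39, (1 : F)), (45, 1)], p.1 ∈ S6 := by
    intro p hp
    simp only [List.mem_cons, List.not_mem_nil, or_false] at hp
    rcases hp with rfl | rfl <;> simp [S6]
  have hcf := good3_F4.wd_unique (posS6 hS1) (commS6 hS1) (posS6 hS2) (commS6 hS2) k3
  have z4 := congrFun hcf 40
  have z6 := congrFun hcf 44
  have z2 := congrFun hcf 46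
  have z3 := congrFun hcf 47
  simp [cf_cons, cf_nil] at z4 z6 z2 z3
  have hyE : y ∈ E F := by
    rw [hy, z4, z6, z2, z3]
    simp only [Good3.X_zero, one_mul, mul_one]
    exact hX33
  exact Subgroup.mul_mem _ (Subgroup.mul_mem _ hX24 hyE) hqE

end

end CfsgLib.F4C
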