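import Mathlib
import Cfsg.Agent.LibF4C4

set_option autoImplicit false
set_option linter.all false
set_option maxRecDepth 100000

/-! the centralizer of x_39(1) x_45(1) in F4, characteristic two (seat helper23) -/

namespace CfsgLib.F4C

open Cfsg.Lie Matrix CfsgLib.Chev

section
variable {F : Type*} [Field F]

theorem hK_X : ∀ i ∈ [0, 3], ∀ t : F, good3_F4.X (tF4.sim i) t ∈ K F ∧ good3_F4.X (tF4.n - 1 - tF4.sim i) t ∈ K F := by
  have hn := n_F4
  obtain ⟨s0, s1, s2, s3⟩ := b12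
  intro i hi t
  simp only [List.mem_cons, List.not_mem_nil, or_false] at hi
  rcases hi with rfl | rfl
  · rw [s0, hn]
    exact ⟨Subgroup.subset_closure ⟨33, t, by omega, rfl⟩, Subgroup.subset_closure ⟨14, t, by omega, rfl⟩⟩
  · rw [s3, hn]
    exact ⟨Subgroup.subset_closure ⟨24, t, by omega, rfl⟩, Subgroup.subset_closure ⟨23, t, by omega, rfl⟩⟩

theorem hK_Ng : ∀ i ∈ [0, 3], ∀ t : F, good3_F4.Ng (tF4.sim i) t ∈ K F := by
  intro i hi t
  unfold Good3.Ng
  exact Subgroup.mul_mem _ (Subgroup.mul_mem _ (hK_X i hi _).1 (hK_X i hi _).2) (hK_X i hi _).1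

theorem hK_hd : ∀ i ∈ [0, 3], ∀ c : Fˣ, hd chevF4 tF4 (tF4.sim i) c ∈ K F := by
  intro i hi c
  have hil : i < tF4.l := by
    rw [l_F4]
    simp only [List.mem_cons, List.not_mem_nil, or_false] at hi
    omega
  rw [← good3_F4.Hg_sim hil]
  exact Subgroup.mul_mem _ (hK_Ng i hi _) (hK_Ng i hi _)

theorem hK_H : ∀ h ∈ chevF4.diagonalSubgroup F, ∀ k ∈ K F, h * k * h⁻¹ ∈ K F := by
  have hn := n_F4
  intro h hh k hk
  obtain ⟨χ, _, _, hX⟩ := good3_F4.H_X hh
  unfold K at hk
  induction hk using Subgroup.closure_induction with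
  | mem y hy =>
    obtain ⟨s, t, hs, rfl⟩ := hy
    rw [hX _ (by omega)]
    exact Subgroup.subset_closure ⟨s, _, hs, rfl⟩
  | one => simp
  | mul y y' _ _ hy hy' =>
    have : h * (y * y') * h⁻¹ = (h * y * h⁻¹) * (h * y' * h⁻¹) := by group
    rw [this]; exact Subgroup.mul_mem _ hy hy'
  | inv y _ hy =>
    have : h * y⁻¹ * h⁻¹ = (h * y * h⁻¹)⁻¹ := by group
    rw [this]; exact Subgroup.inv_mem _ hy

def mm (r : ℕ) : ℤ := if r = 39 then 3 else 2

theorem sumA (i : ℕ) (hi : i < tF4.l) : (([39, 45] : List ℕ).map fun r => mm r * tF4.A i r).sum = if i = 1 ∨ i = 2 then 1 else 0 := by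
  rw [l_F4] at hi
  simp only [List.map_cons, List.map_nil, List.sum_cons, List.sum_nil]
  rw [b10 i hi, b11 i hi]
  have : i = 0 ∨ i = 1 ∨ i = 2 ∨ i = 3 := by omega
  rcases this with rfl | rfl | rfl | rfl <;> decide

theorem A39z (i : ℕ) (hi : i < tF4.l) (h : (([39, 45] : List ℕ).map fun r => mm r * tF4.A i r).sum = 0) :
    i ∈ [0, 3] := by
  rw [sumA i hi] at h
  rw [l_F4] at hi
  have : i = 0 ∨ i = 1 ∨ i = 2 ∨ i = 3 := by omega
  rcases this with rfl | rfl | rfl | rfl
  · simp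
  · exact absurd h (by decide)
  · exact absurd h (by decide)
  · simp

theorem AA0 (i : ℕ) (hi : i ∈ [0, 3]) : ∀ r ∈ ([39, 45] : List ℕ), tF4.A i r = 0 := by
  intro r hr
  simp only [List.mem_cons, List.not_mem_nil, or_false] at hi hr
  rcases hi with rfl | rfl <;> rcases hr with rfl | rfl
  · rw [b10 0 (by omega)]; rfl
  · rw [b11 0 (by omega)]; rfl
  · rw [b10 3 (by omega)]; rfl
  · rw [b11 3 (by omega)]; rfl

theorem stab_K {w : List ℕ} (hw : VW tF4 w) (h39 : wact tF4 w 39 = 39) (h45 : wact tF4 w 45 = 45) :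
    ∃ x ∈ K F, ∃ h ∈ chevF4.diagonalSubgroup F, good3_F4.nw w = x * h := by
  have hn := n_F4
  have hl := l_F4
  apply good3_F4.stab_dom' (R := [39, 45]) (m := mm) ?_ ?_ ?_ (K F) ?_ hK_H _ w rfl hw ?_
  · intro r hr
    simp only [List.mem_cons, List.not_mem_nil, or_false] at hr
    omega
  · intro i hi
    rw [sumA i hi]
    split_ifs <;> norm_num
  · intro i hi h
    exact AA0 i (A39z i hi h)
  · intro i hi h
    have h1 : i ∈ [0, 3] := by
      apply A39z i hi
      simp only [List.map_cons, List.map_nil, List.sum_cons, List.sum_nil]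
      rw [h 39 (by simp), h 45 (by simp)]; simp
    exact hK_Ng i h1 1
  · intro r hr
    simp only [List.mem_cons, List.not_mem_nil, or_false] at hr
    rcases hr with rfl | rfl
    · exact h39
    · exact h45

theorem Um_K {w : List ℕ} (hw : VW tF4 w) (h39 : wact tF4 w 39 = 39) (h45 : wact tF4 w 45 = 45) :
    good3_F4.Um (F := F) w ≤ K F := by
  have hn := n_F4
  unfold Good3.Um
  rw [Subgroup.closure_le]
  rintro x ⟨r, t, h1, h2, h3, rfl⟩
  have h4 := good3_F4.neg_of_stab (R := [39, 45]) (m := mm) ?_ ?_ hw ?_ h1 h2 h3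
  · simp only [List.map_cons, List.map_nil, List.sum_cons, List.sum_nil, add_zero] at h4
    have h5 := List.all_eq_true.1 b9 r (List.mem_range.2 (by omega))
    rw [Nat.ble_eq_true_of_le (show 24 ≤ r by omega), Bool.not_true, Bool.false_or,
      decide_eq_true (show 3 * tF4.pair r 39 + 2 * tF4.pair r 45 = 0 by simpa [mm] using h4), Bool.not_true, Bool.false_or,
      Bool.or_eq_true] at h5
    refine Subgroup.subset_closure ⟨r, t, ?_, rfl⟩
    rcases h5 with h5 | h5
    · have := Nat.eq_of_beq_eq_true h5; omega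
    · have := Nat.eq_of_beq_eq_true h5; omega
  · intro r hr
    simp only [List.mem_cons, List.not_mem_nil, or_false] at hr
    omega
  · intro i hi
    rw [sumA i hi]
    split_ifs <;> norm_num
  · intro r hr
    simp only [List.mem_cons, List.not_mem_nil, or_false] at hr
    rcases hr with rfl | rfl
    · exact h39
    · exact h45

theorem fix_of {w : List ℕ} (hw : VW tF4 w) (h1 : wact tF4 w 39 ∈ S6) (h2 : wact tF4 w 45 ∈ S6) :
    wact tF4 w 39 = 39 ∧ wact tF4 w 45 = 45 := by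
  have hn := n_F4
  have p1 := good3_F4.pair_wact hw (r := 39) (s := 45) (by omega) (by omega)
  have p2 := good3_F4.pair_wact hw (r := 45) (s := 39) (by omega) (by omega)
  have h := List.all_eq_true.1 (List.all_eq_true.1 b6 _ h1) _ h2
  rw [decide_eq_true p1, decide_eq_true p2] at h
  simp only [Bool.and_true, Bool.not_true, Bool.false_or, Bool.or_eq_true, Bool.and_eq_true] at h
  rcases h with ⟨h3, h4⟩ | ⟨h3, h4⟩
  · exact ⟨Nat.eq_of_beq_eq_true h3, Nat.eq_of_beq_eq_true h4⟩
  · exfalso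
    have h4 := Nat.eq_of_beq_eq_true h4
    have hc := b7
    rw [List.any_eq_true] at hc
    obtain ⟨x, hx, h5⟩ := hc
    rw [List.mem_range] at hx
    simp only [Bool.and_eq_true, decide_eq_true_eq] at h5
    have q1 := good3_F4.pair_wact hw (r := x) (s := 45) (by omega) (by omega)
    have q2 := good3_F4.pair_wact hw (r := 45) (s := x) (by omega) (by omega)
    rw [h4, h5.1] at q1
    rw [h4, h5.2] at q2
    have hlt := good3_F4.wact_lt hw (show x < tF4.n by omega)
    have h6 := List.all_eq_true.1 b8 (wact tF4 w x) (List.mem_range.2 (by omega))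
    rw [decide_eq_true q1, decide_eq_true q2] at h6
    exact absurd h6 (by decide)

variable [CharP F 2]

theorem H_C {h : GL chevF4.Idx F} (hh : h ∈ chevF4.diagonalSubgroup F) {u : GL chevF4.Idx F} (hu : u ∈ chevF4.posUnipotent F)
    (hc : (u * h) * vv F = vv F * (u * h)) : h ∈ K F := by
  have hn := n_F4
  obtain ⟨a, rfl⟩ := good3_F4.mem_H.1 hh
  have e1 := good3_F4.hel_X (F := F) a (r := 39) (by omega) 1
  have e2 := good3_F4.hel_X (F := F) a (r := 45) (by omega) 1
  rw [mul_one] at e1 e2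
  have e3 : hel chevF4 tF4 a * vv F * (hel chevF4 tF4 a)⁻¹ = good3_F4.wd [(39, (hchi tF4 a 39 : F)), (45, (hchi tF4 a 45 : F))] := by
    simp only [Good3.wd_cons, Good3.wd_nil, mul_one]
    rw [← e1, ← e2]; unfold vv; group
  have hP : PS (hchi tF4 a 39 : F) (hchi tF4 a 45 : F) (hel chevF4 tF4 a * vv F * (hel chevF4 tF4 a)⁻¹) := by
    refine ⟨_, ?_, ?_, ?_, e3⟩
    · intro p hp
      simp only [List.mem_cons, List.not_mem_nil, or_false] at hp
      rcases hp with rfl | rfl <;> simp [S6]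
    · simp [cf_cons, cf_nil]
    · simp [cf_cons, cf_nil]
  have hP2 := PS_conj hu hP
  have e4 : u * (hel chevF4 tF4 a * vv F * (hel chevF4 tF4 a)⁻¹) * u⁻¹ = vv F := by
    have : u * (hel chevF4 tF4 a * vv F * (hel chevF4 tF4 a)⁻¹) * u⁻¹ =
      ((u * hel chevF4 tF4 a) * vv F) * (u * hel chevF4 tF4 a)⁻¹ := by group
    rw [this, hc]; group
  rw [e4] at hP2
  obtain ⟨h1, h2⟩ := PS_unique hP2 vv_PS
  have c1 : hchi tF4 a 39 = 1 := Units.ext h1
  have c2 : hchi tF4 a 45 = 1 := Units.ext h2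
  unfold hchi at c1 c2
  rw [l_F4] at c1 c2
  simp only [Finset.prod_range_succ, Finset.prod_range_zero] at c1 c2
  rw [b10 0 (by omega), b10 1 (by omega), b10 2 (by omega), b10 3 (by omega)] at c1
  rw [b11 0 (by omega), b11 1 (by omega), b11 2 (by omega), b11 3 (by omega)] at c2
  simp at c1 c2
  have d1 : a 1 = a 2 := by
    have := congrArg (fun x => a 1 * x) c1
    simpa using this.symm
  have d2 : a 1 = 1 := by
    rw [← d1] at c2
    exact Eq.trans (by group) c2
  rw [← good3_F4.hel_range, l_F4]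
  apply Subgroup.list_prod_mem
  intro x hx
  rw [List.mem_map] at hx
  obtain ⟨i, hi, rfl⟩ := hx
  rw [List.mem_range] at hi
  have : i = 0 ∨ i = 1 ∨ i = 2 ∨ i = 3 := by omega
  rcases this with rfl | rfl | rfl | rfl
  · exact hK_hd 0 (by simp) _
  · rw [d2, Good3.hd_one]; exact Subgroup.one_mem _
  · rw [← d1, d2, Good3.hd_one]; exact Subgroup.one_mem _
  · exact hK_hd 3 (by simp) _

theorem cent_main : chevF4.group F ⊓ Subgroup.centralizer {vv F} = E F := by
  have hn := n_F4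
  have hcent : ∀ x : GL chevF4.Idx F, x ∈ Subgroup.centralizer ({vv F} : Set (GL chevF4.Idx F)) ↔ x * vv F = vv F * x := by
    intro x
    rw [Subgroup.mem_centralizer_iff]
    constructor
    · intro h; exact (h _ rfl).symm
    · rintro h _ rfl; exact h.symm
  apply le_antisymm
  · rintro x ⟨hxG, hxC⟩
    have hxC : x * vv F = vv F * x := (hcent x).1 hxC
    obtain ⟨w, hw, u, hu, h, hh, c, hc, e⟩ := CfsgLib.ChevFix.nf_exists good3_F4 hxG
    have hcU := good3_F4.Um_le_U w hc
    obtain ⟨c', hc', hX⟩ := good3_F4.conj_X (F := F) hw hh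
    obtain ⟨f, f39, f45, ef⟩ := PS_norm (PS_conj hcU vv_PS)
    obtain ⟨f', f39', f45', ef'⟩ := PS_norm (PS_conj (Subgroup.inv_mem _ hu) vv_PS)
    have e1 : (good3_F4.nw w * h) * (c * vv F * c⁻¹) * (good3_F4.nw w * h)⁻¹ = u⁻¹ * vv F * (u⁻¹)⁻¹ := by
      have : (good3_F4.nw w * h) * (c * vv F * c⁻¹) * (good3_F4.nw w * h)⁻¹ = u⁻¹ * ((x * vv F) * x⁻¹) * (u⁻¹)⁻¹ := by
        rw [e]; group
      rw [this, hxC]; group
    rw [ef, ef'] at e1
    have hM : ∀ f : ℕ → F, ∀ p ∈ S6.map fun r => (r, f r), p.1 ∈ S6 := by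
      intro f p hp
      rw [List.mem_map] at hp
      obtain ⟨r, hr, rfl⟩ := hp
      exact hr
    have key := good3_F4.lemP hw hc' hX (posS6 (hM f)) (commS6 (hM f)) (by simp [S6]) (posS6 (hM f')) (commS6 (hM f')) e1
    have hmem : ∀ r, cf (S6.map fun r => (r, f' r)) r ≠ 0 → r ∈ S6 := by
      intro r hr
      by_contra hcon
      apply hr
      apply cf_zero
      rintro p hp rfl
      exact hcon (hM f' p hp)
    have k1 := (key (39, f 39) (List.mem_map.2 ⟨39, by simp [S6], rfl⟩) (by rw [f39]; exact one_ne_zero)).2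
    have k2 := (key (45, f 45) (List.mem_map.2 ⟨45, by simp [S6], rfl⟩) (by rw [f45]; exact one_ne_zero)).2
    have m1 : wact tF4 w 39 ∈ S6 := hmem _ (by
      show cf (S6.map fun r => (r, f' r)) (wact tF4 w 39) ≠ 0
      rw [k1]
      exact mul_ne_zero (hc' _) (by show f 39 ≠ 0; rw [f39]; exact one_ne_zero))
    have m2 : wact tF4 w 45 ∈ S6 := hmem _ (by
      show cf (S6.map fun r => (r, f' r)) (wact tF4 w 45) ≠ 0
      rw [k2]
      exact mul_ne_zero (hc' _) (by show f 45 ≠ 0; rw [f45]; exact one_ne_zero))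
    obtain ⟨h39, h45⟩ := fix_of hw m1 m2
    obtain ⟨k, hk, h1, hh1, e2⟩ := stab_K (F := F) hw h39 h45
    have hcK := Um_K (F := F) hw h39 h45 hc
    have hh2 := Subgroup.mul_mem _ hh1 hh
    have hk' : (h1 * h)⁻¹ * k * (h1 * h) * c ∈ K F := by
      have := hK_H _ (Subgroup.inv_mem _ hh2) k hk
      rw [inv_inv] at this
      exact Subgroup.mul_mem _ this hcK
    have e3 : x = (u * (h1 * h)) * ((h1 * h)⁻¹ * k * (h1 * h) * c) := by
      rw [e, mul_assoc u, e2]; group
    have e4 : (u * (h1 * h)) * vv F = vv F * (u * (h1 * h)) := by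
      have h5 := E_comm (Subgroup.inv_mem _ (K_le_E hk'))
      have h6 : u * (h1 * h) = x * ((h1 * h)⁻¹ * k * (h1 * h) * c)⁻¹ := by rw [e3]; group
      rw [h6, mul_assoc, h5, ← mul_assoc, hxC, mul_assoc]
    have hHK := H_C hh2 hu e4
    have e5 : u * vv F = vv F * u := by
      have h5 := E_comm (Subgroup.inv_mem _ (K_le_E hHK))
      have h6 : u = (u * (h1 * h)) * (h1 * h)⁻¹ := by group
      rw [h6, mul_assoc (u * (h1 * h)), h5, ← mul_assoc, e4, mul_assoc]
    rw [e3]
    exact Subgroup.mul_mem _ (Subgroup.mul_mem _ (CU_le hu e5) (K_le_E hHK)) (K_le_E hk')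
  · intro x hx
    refine ⟨?_, (hcent x).2 (E_comm hx)⟩
    have : E F ≤ chevF4.group F := by
      unfold E
      rw [Subgroup.closure_le]
      rintro x ⟨s, t, hs, rfl⟩
      exact good3_F4.X_mem_G _ _
    exact this hx

end

end CfsgLib.F4C
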