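import Cfsg.Agent.LibFT21

set_option autoImplicit false

/-! Saturated fusion systems over abelian groups (helper1) -/

namespace CfsgLib.FT

open Cfsg Cfsg.FusionSystem CfsgLib.Fus21
open scoped commutatorElement

universe u

variable {Ω : Type u} [Group Ω] {S : Subgroup Ω} {F : FusionSystem S} {p : ℕ} {U : Subgroup Ω}

/-- over an abelian group every morphism is the restriction of an automorphism of `S` -/
theorem abel_extend [Finite S] [hp : Fact p.Prime] (hS : IsPGroup p S) (hF : F.IsSaturated p) (hab : ∀ x ∈ S, ∀ y ∈ S, x * y = y * x)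
    {P : Subgroup Ω} {φ : P →* Ω} (hφ : φ ∈ F.Hom P) : ∃ α ∈ F.autGroup S, ∀ x (hx : x ∈ P) (hxS : x ∈ S), φ ⟨x, hx⟩ = ((α ⟨x, hxS⟩ : S) : Ω) := by
  have hPS := (F.le_of_mem hφ).1
  have hrS : φ.range ≤ S := by rintro _ ⟨x, rfl⟩; exact (F.le_of_mem hφ).2 x
  have hC : ∀ R : Subgroup Ω, R ≤ S → centralizerIn S R = S := fun R hR => le_antisymm (centralizerIn_le S R) fun x hx =>
    mem_centralizerIn'.2 ⟨hx, fun y hy => by rw [hab x hx y (hR hy), mul_inv_cancel_right]⟩
  have hfc : F.IsFullyCentralized φ.range := ⟨hrS, fun R hR => by rw [hC _ hrS, hC R (conj_le_right hR)]⟩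
  obtain ⟨ψ, hψ, hψφ⟩ := (sat_fc_receptive hS hF hfc).2 P φ hφ rfl
  have hSe : S ≤ extender S P φ := by
    intro g hg
    rw [mem_extender]
    refine ⟨hg, ?_, 1, S.one_mem, fun x hx => ?_⟩
    · rw [Subgroup.mem_normalizer_iff]
      intro y
      constructor
      · intro hy
        rw [hab g hg y (hPS hy), mul_inv_cancel_right]; exact hy
      · intro hy
        have h1 := hPS hy
        have h2 : y = g⁻¹ * (g * y * g⁻¹) * g := by group
        have h3 := hab g⁻¹ (S.inv_mem hg) _ h1
        rw [h3] at h2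
        rw [h2, inv_mul_cancel_right]; exact hy
    · have : (⟨g * (x : Ω) * g⁻¹, hx⟩ : P) = x := Subtype.ext (by
        show g * (x : Ω) * g⁻¹ = x
        rw [hab g hg x (hPS x.2), mul_inv_cancel_right])
      rw [this]; simp
  obtain ⟨α, hα, hαψ⟩ := exists_aut_of_hom (restrict_mem hψ hSe) fun x => (F.le_of_mem (restrict_mem hψ hSe)).2 x
  exact ⟨α, hα, fun x hx hxS => by rw [hαψ]; exact (hψφ x hx (hSe hxS)).symm⟩

theorem abel_card [Finite S] [hp : Fact p.Prime] (hS : IsPGroup p S) (hF : F.IsSaturated p) (hab : ∀ x ∈ S, ∀ y ∈ S, x * y = y * x) :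
    ¬ p ∣ Nat.card (F.autGroup S) := by
  have h1 := ((fullyAutomized_iff hS).1 (sat_fn hS hF (fullyNormalized_S F)).2).2
  have h2 : autInducedBy S S = ⊥ := by
    rw [eq_bot_iff]
    intro α hα
    obtain ⟨g, hg, hx⟩ := mem_autInducedBy.1 hα
    rw [Subgroup.mem_bot]
    apply MulEquiv.ext
    intro x
    apply Subtype.ext
    rw [hx, hab g hg x x.2, mul_inv_cancel_right]
    rfl
  rwa [h2, Subgroup.relIndex_bot_left] at h1

/-- S5330 -/
theorem abel_split [Finite S] [hp : Fact p.Prime] (hS : IsPGroup p S) (hF : F.IsSaturated p) (hab : ∀ x ∈ S, ∀ y ∈ S, x * y = y * x) :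
    F.center ⊓ F.focalSubgroup = ⊥ ∧ F.center ⊔ F.focalSubgroup = S := by
  constructor
  · rw [inf_comm, focal_center hS hF]
    have : ⁅S, S⁆ = ⊥ := by
      rw [eq_bot_iff, Subgroup.commutator_le]
      intro a ha b hb
      rw [Subgroup.mem_bot, commutatorElement_def, hab a ha b hb]; group
    rw [this, bot_inf_eq]
  · apply le_antisymm
    · refine sup_le (isCentral_center F).1 ?_
      rw [focal_eq hS hF]
      exact sup_le (hyp_normIn F p).1 (Subgroup.commutator_le.2 fun a ha b hb =>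
        S.mul_mem (S.mul_mem (S.mul_mem ha hb) (S.inv_mem ha)) (S.inv_mem hb))
    · intro s hs
      haveI := finite_autGroup F (le_refl S)
      haveI : Fintype (F.autGroup S) := Fintype.ofFinite _
      letI : CommGroup S := { (inferInstance : Group S) with mul_comm := fun a b => Subtype.ext (hab a a.2 b b.2) }
      let z : S := ∏ α : F.autGroup S, (α : MulAut S) ⟨s, hs⟩
      have hz : ∀ β ∈ F.autGroup S, β z = z := by
        intro β hβ
        show β (∏ α : F.autGroup S, (α : MulAut S) ⟨s, hs⟩) = _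
        rw [map_prod]
        exact Fintype.prod_equiv (Equiv.mulLeft (⟨β, hβ⟩ : F.autGroup S)) _ _ fun α => rfl
      have hzc : (z : Ω) ∈ F.center := by
        refine le_center (Q := Subgroup.zpowers (z : Ω)) (isCentral_of_fixed hS hF (by rw [Subgroup.zpowers_le]; exact z.2) ?_) (Subgroup.mem_zpowers _)
        intro x hx y hxy
        obtain ⟨φ, hφ, hφx⟩ := hxy
        obtain ⟨α, hα, h1⟩ := abel_extend hS hF hab hφ
        obtain ⟨i, rfl⟩ := Subgroup.mem_zpowers_iff.1 hx
        rw [← hφx, h1 _ (Subgroup.mem_zpowers _) (S.zpow_mem z.2 i)]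
        have : (⟨(z : Ω) ^ i, S.zpow_mem z.2 i⟩ : S) = z ^ i := rfl
        rw [this, map_zpow, hz α hα]
        rfl
      -- `s ^ n` lies in the product
      have h1 : (∏ α : F.autGroup S, ((⟨s, hs⟩ : S)⁻¹ * (α : MulAut S) ⟨s, hs⟩)) = ((⟨s, hs⟩ : S) ^ Nat.card (F.autGroup S))⁻¹ * z := by
        rw [Finset.prod_mul_distrib, Finset.prod_const, Finset.card_univ, Nat.card_eq_fintype_card, inv_pow]
      have h2 : ((∏ α : F.autGroup S, ((⟨s, hs⟩ : S)⁻¹ * (α : MulAut S) ⟨s, hs⟩) : S) : Ω) ∈ F.focalSubgroup := by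
        have : ∀ t : Finset (F.autGroup S), ((∏ α ∈ t, ((⟨s, hs⟩ : S)⁻¹ * (α : MulAut S) ⟨s, hs⟩) : S) : Ω) ∈ F.focalSubgroup := by
          classical
          intro t
          induction t using Finset.induction_on with
          | empty => rw [Finset.prod_empty]; exact Subgroup.one_mem _
          | insert a t ha ih =>
            rw [Finset.prod_insert ha]
            refine Subgroup.mul_mem _ ?_ ih
            exact Subgroup.subset_closure ⟨S, S.subtype.comp ((a : MulAut S) : S ≃* S).toMonoidHom, ⟨s, hs⟩, (mem_autGroup le_rfl).1 a.2, rfl⟩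
        exact this _
      rw [h1] at h2
      have h3 : s ^ Nat.card (F.autGroup S) ∈ F.center ⊔ F.focalSubgroup := by
        have e : s ^ Nat.card (F.autGroup S) = (z : Ω) * ((((⟨s, hs⟩ : S) ^ Nat.card (F.autGroup S))⁻¹ * z : S) : Ω)⁻¹ := by
          push_cast
          group
        rw [e]
        exact Subgroup.mul_mem _ (Subgroup.mem_sup_left hzc) (Subgroup.mem_sup_right (Subgroup.inv_mem _ h2))
      obtain ⟨n, hn⟩ := hS ⟨s, hs⟩
      have hn' : s ^ p ^ n = 1 := congrArg Subtype.val hn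
      have hcop : (Nat.card (F.autGroup S)).Coprime (orderOf s) := Nat.Coprime.coprime_dvd_right (orderOf_dvd_of_pow_eq_one hn')
        (Nat.Coprime.pow_right n ((Nat.Prime.coprime_iff_not_dvd hp.out).2 (abel_card hS hF hab)).symm)
      obtain ⟨m, hm⟩ := exists_pow_eq_self_of_coprime hcop
      rw [← hm]
      exact Subgroup.pow_mem _ h3 m

end CfsgLib.FT
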