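import Cfsg.Agent.LibFT24

set_option autoImplicit false

/-! Automorphisms of odd order of abelian 2-groups of pairwise distinct invariants (helper1) -/

namespace CfsgLib.FT

open Cfsg Cfsg.FusionSystem CfsgLib.Fus21
open scoped commutatorElement

theorem zmod_two {a : ℕ} (ha : 1 ≤ a) {x : ZMod (2 ^ a)} (h : x + x = 0) : x = 0 ∨ x = ((2 ^ (a - 1) : ℕ) : ZMod (2 ^ a)) := by
  haveI : NeZero (2 ^ a) := ⟨by positivity⟩
  have h1 : ((2 * x.val : ℕ) : ZMod (2 ^ a)) = 0 := by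
    push_cast
    rw [ZMod.natCast_zmod_val, two_mul]; exact h
  rw [ZMod.natCast_eq_zero_iff] at h1
  obtain ⟨b, rfl⟩ : ∃ b, a = b + 1 := ⟨a - 1, by omega⟩
  have h2 : 2 ^ b ∣ x.val := by
    have e : 2 ^ (b + 1) = 2 * 2 ^ b := by rw [pow_succ, mul_comm]
    have h1' : 2 * 2 ^ b ∣ 2 * x.val := by rw [← e]; exact h1
    exact Nat.dvd_of_mul_dvd_mul_left (by norm_num) h1'
  obtain ⟨c, hc⟩ := h2
  have h3 := ZMod.val_lt x
  have h3' : 2 ^ b * c < 2 ^ b * 2 := by rw [← hc, ← pow_succ]; exact h3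
  have hc2 : c < 2 := Nat.lt_of_mul_lt_mul_left h3'
  interval_cases c
  · left
    rw [mul_zero] at hc
    exact (ZMod.val_eq_zero x).1 hc
  · right
    rw [mul_one] at hc
    rw [show b + 1 - 1 = b by omega, ← hc, ZMod.natCast_zmod_val]

theorem zmod_dist {a j : ℕ} (ha : 1 ≤ a) {x : ZMod (2 ^ a)} (h : x + x = 0) (hx : ∃ y : ZMod (2 ^ a), x = (2 ^ j : ℕ) • y) (haj : a ≠ j + 1) :
    ∃ y : ZMod (2 ^ a), x = (2 ^ (j + 1) : ℕ) • y := by
  rcases zmod_two ha h with rfl | h1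
  · exact ⟨0, by simp⟩
  · rcases Nat.lt_or_ge j a with hj | hj
    · have : j + 1 ≤ a - 1 := by omega
      obtain ⟨c, hc⟩ := Nat.exists_eq_add_of_le this
      refine ⟨((2 ^ c : ℕ) : ZMod (2 ^ a)), ?_⟩
      rw [h1, hc, nsmul_eq_mul, ← Nat.cast_mul, ← pow_add]
    · obtain ⟨y, hy⟩ := hx
      refine ⟨0, ?_⟩
      obtain ⟨c, hc⟩ := Nat.exists_eq_add_of_le hj
      rw [hy, hc, pow_add, nsmul_eq_mul, smul_zero]
      push_cast
      have h4 : ((2 : ZMod (2 ^ a)) ^ a) = 0 := by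
        have := ZMod.natCast_self (2 ^ a)
        push_cast at this
        exact this
      rw [h4]; ring

/-- the main statement, additively -/
theorem pair_diff {n : ℕ} {a : Fin n → ℕ} (ha : StrictMono a) (ha1 : ∀ i, 1 ≤ a i) {j : ℕ} {x x' : (i : Fin n) → ZMod (2 ^ a i)}
    (h1 : x + x = 0) (h1' : x' + x' = 0) (h2 : ∃ y, x = (2 ^ j : ℕ) • y) (h2' : ∃ y, x' = (2 ^ j : ℕ) • y)
    (h3 : ¬ ∃ y, x = (2 ^ (j + 1) : ℕ) • y) (h3' : ¬ ∃ y, x' = (2 ^ (j + 1) : ℕ) • y) : ∃ y, x' - x = (2 ^ (j + 1) : ℕ) • y := by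
  classical
  -- a coordinate obstructing
  have key : ∀ z : (i : Fin n) → ZMod (2 ^ a i), z + z = 0 → (∃ y, z = (2 ^ j : ℕ) • y) → (¬ ∃ y, z = (2 ^ (j + 1) : ℕ) • y) →
      ∃ i, a i = j + 1 ∧ z i ≠ 0 := by
    intro z hz hz2 hz3
    by_contra hcon
    push Not at hcon
    apply hz3
    have : ∀ i, ∃ y : ZMod (2 ^ a i), z i = (2 ^ (j + 1) : ℕ) • y := by
      intro i
      by_cases hi : a i = j + 1
      · rw [hcon i hi]; exact ⟨0, by simp⟩
      · obtain ⟨y, hy⟩ := hz2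
        exact zmod_dist (ha1 i) (congrFun hz i) ⟨y i, congrFun hy i⟩ hi
    choose y hy using this
    exact ⟨y, funext hy⟩
  obtain ⟨i, hi, hxi⟩ := key x h1 h2 h3
  obtain ⟨i', hi', hxi'⟩ := key x' h1' h2' h3'
  obtain rfl : i = i' := ha.injective (hi.trans hi'.symm)
  have h4 : x' i - x i = 0 := by
    rcases zmod_two (ha1 i) (congrFun h1 i) with h | h
    · exact absurd h hxi
    · rcases zmod_two (ha1 i) (congrFun h1' i) with h' | h'
      · exact absurd h' hxi'
      · rw [h, h', sub_self]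
  have h5 : (x' - x) + (x' - x) = 0 := by
    have : (x' - x) + (x' - x) = (x' + x') - (x + x) := by abel
    rw [this, h1, h1', sub_self]
  obtain ⟨y, hy⟩ := h2
  obtain ⟨y', hy'⟩ := h2'
  by_contra hcon
  obtain ⟨k, hk, hk2⟩ := key (x' - x) h5 ⟨y' - y, by rw [hy, hy', smul_sub]⟩ hcon
  obtain rfl : i = k := ha.injective (hi.trans hk.symm)
  exact hk2 h4

theorem odd_aut_trivial {G : Type*} [Group G] [Finite G] {n : ℕ} {a : Fin n → ℕ} (ha : StrictMono a) (ha1 : ∀ i, 1 ≤ a i)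
    (e : G ≃* Multiplicative ((i : Fin n) → ZMod (2 ^ a i))) (hG : IsPGroup 2 G) {α : MulAut G} (ho : (orderOf α).Coprime 2) : α = 1 := by
  haveI : Fact (Nat.Prime 2) := ⟨Nat.prime_two⟩
  -- translation
  have hmul : ∀ x y : G, Multiplicative.toAdd (e (x * y)) = Multiplicative.toAdd (e x) + Multiplicative.toAdd (e y) := fun x y => by
    rw [map_mul]; rfl
  have hpow : ∀ (x : G) (k : ℕ), Multiplicative.toAdd (e (x ^ k)) = k • Multiplicative.toAdd (e x) := fun x k => by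
    rw [map_pow]; rfl
  have hinv : ∀ x : G, Multiplicative.toAdd (e x⁻¹) = - Multiplicative.toAdd (e x) := fun x => by
    rw [map_inv]; rfl
  have h0 : ∀ x : G, x = 1 ↔ Multiplicative.toAdd (e x) = 0 := fun x => by
    constructor
    · rintro rfl; rw [map_one]; rfl
    · intro h; exact (MulEquiv.map_eq_one_iff e).1 h
  have hsq : ∀ x : G, x ^ 2 = 1 ↔ Multiplicative.toAdd (e x) + Multiplicative.toAdd (e x) = 0 := fun x => by
    rw [h0, hpow, two_nsmul]
  have hdiv : ∀ (x : G) (j : ℕ), (∃ y, x = y ^ 2 ^ j) ↔ ∃ y, Multiplicative.toAdd (e x) = (2 ^ j : ℕ) • y := fun x j => by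
    constructor
    · rintro ⟨y, rfl⟩; exact ⟨_, hpow y _⟩
    · rintro ⟨y, hy⟩
      refine ⟨e.symm (Multiplicative.ofAdd y), ?_⟩
      apply e.injective
      rw [map_pow, e.apply_symm_apply]
      exact hy
  -- involutions are fixed
  have hfix : ∀ d j : ℕ, (∀ x : G, (∃ y, x = y ^ 2 ^ (j + d)) → x = 1) → ∀ x : G, x ^ 2 = 1 → (∃ y, x = y ^ 2 ^ j) → α x = x := by
    intro d
    induction d with
    | zero =>
      intro j h x _ hx
      rw [h x hx, map_one]
    | succ d ih =>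
      intro j h x hx2 hx
      have ih' := ih (j + 1) (fun x hx => h x (by rwa [show j + (d + 1) = j + 1 + d by omega]))
      by_cases hx3 : ∃ y, x = y ^ 2 ^ (j + 1)
      · exact ih' x hx2 hx3
      · have hα2 : (α x) ^ 2 = 1 := by rw [← map_pow, hx2, map_one]
        have hα3 : ∃ y, α x = y ^ 2 ^ j := by obtain ⟨y, rfl⟩ := hx; exact ⟨α y, map_pow α _ _⟩
        have hα4 : ¬ ∃ y, α x = y ^ 2 ^ (j + 1) := by
          rintro ⟨y, hy⟩
          apply hx3
          refine ⟨α⁻¹ y, ?_⟩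
          rw [← map_pow, ← hy, MulAut.inv_apply_self]
        have h5 := pair_diff ha ha1 ((hsq x).1 hx2) ((hsq _).1 hα2) ((hdiv x j).1 hx) ((hdiv _ j).1 hα3)
          (fun h => hx3 ((hdiv x _).2 h)) (fun h => hα4 ((hdiv _ _).2 h))
        have h6 : ∃ y, x⁻¹ * α x = y ^ 2 ^ (j + 1) := by
          rw [hdiv, hmul, hinv, neg_add_eq_sub]
          exact h5
        have h7 : (x⁻¹ * α x) ^ 2 = 1 := by
          rw [hsq, hmul, hinv]
          have e1 := (hsq x).1 hx2
          have e2 := (hsq _).1 hα2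
          have : -Multiplicative.toAdd (e x) + Multiplicative.toAdd (e (α x)) + (-Multiplicative.toAdd (e x) + Multiplicative.toAdd (e (α x))) =
            (Multiplicative.toAdd (e (α x)) + Multiplicative.toAdd (e (α x))) - (Multiplicative.toAdd (e x) + Multiplicative.toAdd (e x)) := by abel
          rw [this, e1, e2, sub_self]
        exact fixed_of_comm_fixed hG ho (ih' _ h7 h6)
  have hinvol : ∀ x : G, x ^ 2 = 1 → α x = x := by
    intro x hx
    obtain ⟨n₀, hn₀⟩ := IsPGroup.iff_card.1 hG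
    refine hfix n₀ 0 (fun x hx => ?_) x hx ⟨x, by simp⟩
    obtain ⟨y, rfl⟩ := hx
    rw [zero_add, ← hn₀]
    exact pow_card_eq_one'
  -- all elements
  have hall : ∀ k : ℕ, ∀ x : G, x ^ 2 ^ k = 1 → α x = x := by
    intro k
    induction k with
    | zero =>
      intro x hx
      rw [pow_zero, pow_one] at hx
      rw [hx, map_one]
    | succ k ih =>
      intro x hx
      have h1 : α (x ^ 2) = x ^ 2 := ih _ (by rw [← pow_mul, ← pow_succ']; exact hx)
      have h2 : (x⁻¹ * α x) ^ 2 = 1 := by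
        rw [hsq, hmul, hinv]
        have e1 : Multiplicative.toAdd (e (α x)) + Multiplicative.toAdd (e (α x)) = Multiplicative.toAdd (e x) + Multiplicative.toAdd (e x) := by
          rw [← two_nsmul, ← two_nsmul, ← hpow, ← hpow, ← map_pow, h1]
        have : -Multiplicative.toAdd (e x) + Multiplicative.toAdd (e (α x)) + (-Multiplicative.toAdd (e x) + Multiplicative.toAdd (e (α x))) =
          (Multiplicative.toAdd (e (α x)) + Multiplicative.toAdd (e (α x))) - (Multiplicative.toAdd (e x) + Multiplicative.toAdd (e x)) := by abel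
        rw [this, e1, sub_self]
      exact fixed_of_comm_fixed hG ho (hinvol _ h2)
  apply MulEquiv.ext
  intro x
  obtain ⟨k, hk⟩ := hG x
  exact hall k x hk

universe u

variable {Ω : Type u} [Group Ω] {S : Subgroup Ω}

/-- S5331 -/
theorem abel_two [Finite S] {n : ℕ} {a : Fin n → ℕ} (ha : StrictMono a) (ha1 : ∀ i, 1 ≤ a i)
    (e : S ≃* Multiplicative ((i : Fin n) → ZMod (2 ^ a i))) (F : FusionSystem S) (hF : F.IsSaturated 2) (P : Subgroup Ω) :
    F.Hom P = (innerFusionSystem S).Hom P := by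
  haveI : Fact (Nat.Prime 2) := ⟨Nat.prime_two⟩
  have hS : IsPGroup 2 S := by
    refine IsPGroup.of_card (n := ∑ i, a i) ?_
    rw [Nat.card_congr e.toEquiv, Nat.card_congr (Multiplicative.toAdd (α := (i : Fin n) → ZMod (2 ^ a i))), Nat.card_pi, ← Finset.prod_pow_eq_pow_sum]
    refine Finset.prod_congr rfl fun i _ => ?_
    rw [Nat.card_zmod]
  have hab : ∀ x ∈ S, ∀ y ∈ S, x * y = y * x := by
    intro x hx y hy
    have : (⟨x, hx⟩ : S) * ⟨y, hy⟩ = ⟨y, hy⟩ * ⟨x, hx⟩ := e.injective (by rw [map_mul, map_mul, mul_comm])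
    exact congrArg Subtype.val this
  haveI := finite_autGroup F (le_refl S)
  have hA : ∀ α ∈ F.autGroup S, α = 1 := by
    intro α hα
    refine odd_aut_trivial ha ha1 e hS ?_
    have h1 := abel_card hS hF hab
    have h2 : orderOf (⟨α, hα⟩ : F.autGroup S) ∣ Nat.card (F.autGroup S) := orderOf_dvd_natCard _
    rw [Subgroup.orderOf_mk] at h2
    exact ((Nat.Prime.coprime_iff_not_dvd Nat.prime_two).2 fun h => h1 (h.trans h2)).symm
  ext φ
  constructor
  · intro hφ
    obtain ⟨α, hα, h⟩ := abel_extend hS hF hab hφ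
    refine ⟨(F.le_of_mem hφ).1, 1, S.one_mem, fun x => ?_⟩
    rw [h x x.2 ((F.le_of_mem hφ).1 x.2), hA α hα]
    simp
  · exact fun hφ => inner_le F P hφ

end CfsgLib.FT
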