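import Mathlib
import Cfsg.Agent.EqBase
import Cfsg.Agent.LibH2Thomp
import Cfsg.Agent.LibLE

set_option autoImplicit false

/-! Baumann blocks (helper5). -/

namespace CfsgLib.FgBlk
open Subgroup Cfsg CfsgLib.H2Thomp CfsgLib.H2Misc CfsgLib.Coprime
open scoped Pointwise commutatorElement

universe u

variable {G : Type u} [Group G]

theorem centerThompsonOf_smul (p : ℕ) (g : G) (T : Subgroup G) :
    centerThompsonOf p (MulAut.conj g • T) = MulAut.conj g • centerThompsonOf p T := by
  rw [centerThompsonOf, centerThompsonOf, thompsonSubgroupOf_eq, thompsonSubgroupOf_eq, Je_smul, center_smul]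

theorem baumann_smul (p : ℕ) (g : G) (T : Subgroup G) :
    baumannSubgroupOf p (MulAut.conj g • T) = MulAut.conj g • baumannSubgroupOf p T := by
  rw [baumannSubgroupOf, baumannSubgroupOf, centerThompsonOf_smul, omegaOne_smul, centralizer_smul, smul_inf]

theorem thompson_le (p : ℕ) (T : Subgroup G) : thompsonSubgroupOf p T ≤ T := by
  rw [thompsonSubgroupOf_eq]; exact JQ_le _ _

theorem thompson_le_baumann (p : ℕ) (T : Subgroup G) : thompsonSubgroupOf p T ≤ baumannSubgroupOf p T := by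
  refine le_inf (thompson_le p T) ?_
  rw [le_centralizer_iff]
  refine (omegaOne_le p _).trans ?_
  exact inf_le_right

theorem baumann_le (p : ℕ) (T : Subgroup G) : baumannSubgroupOf p T ≤ T := inf_le_left

theorem normalizer_le_baumann [Finite G] (p : ℕ) (T : Subgroup G) :
    normalizer (T : Set G) ≤ normalizer (baumannSubgroupOf p T : Set G) := by
  intro g hg
  apply mem_normalizer_of_conj_smul_eq
  rw [← baumann_smul, conj_smul_eq_of_mem_normalizer hg]

theorem baumann_eq_of_conj [Finite G] {p : ℕ} {T T₁ : Subgroup G} {g : G} (hg : T₁ = MulAut.conj g • T)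
    (hJ : thompsonSubgroupOf p T ≤ T₁) (hB : baumannSubgroupOf p T ≤ T₁) :
    baumannSubgroupOf p T₁ = baumannSubgroupOf p T := by
  have hcard : ∀ A : Subgroup G, Nat.card ↥(MulAut.conj g • A) = Nat.card A := fun A =>
    (Nat.card_congr (A.equivMapOfInjective (MulAut.conj g).toMonoidHom (MulAut.conj g).injective).toEquiv).symm
  have h1 : thompsonSubgroupOf p T ≤ thompsonSubgroupOf p T₁ := by
    rw [thompsonSubgroupOf_eq, thompsonSubgroupOf_eq]
    apply sSup_le
    intro A hA
    have hAT : A ≤ T₁ := (le_sSup hA).trans (by rw [← JQ, ← Je, ← thompsonSubgroupOf_eq]; exact hJ)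
    have h2 := maxIn_map (MulAut.conj g).toMonoidHom (P := T) (MulAut.conj g).injective.injOn
      (elab_map_iff p (MulAut.conj g).toMonoidHom (P := T) (MulAut.conj g).injective.injOn)
    have h3 : MulAut.conj g • A ∈ maxIn (IsElementaryAbelian p) T₁ := by
      rw [hg]
      show A.map (MulAut.conj g).toMonoidHom ∈ maxIn (IsElementaryAbelian p) (T.map (MulAut.conj g).toMonoidHom)
      rw [h2]
      exact ⟨A, hA, rfl⟩
    apply le_sSup
    refine ⟨hAT, hA.2.1, fun B hB1 hB2 => ?_⟩
    have h4 := h3.2.2 B hB1 hB2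
    rwa [hcard] at h4
  have h2 : thompsonSubgroupOf p T = thompsonSubgroupOf p T₁ := by
    apply Subgroup.eq_of_le_of_card_ge h1
    rw [hg, thompsonSubgroupOf_eq, thompsonSubgroupOf_eq, Je_smul, hcard]
  have h3 : baumannSubgroupOf p T ≤ baumannSubgroupOf p T₁ := by
    rw [baumannSubgroupOf, baumannSubgroupOf, centerThompsonOf, centerThompsonOf, ← h2]
    refine le_inf ?_ inf_le_right
    exact hB
  symm
  apply Subgroup.eq_of_le_of_card_ge h3
  rw [hg, baumann_smul, hcard]

theorem le_normalizer_baumann [Finite G] {p : ℕ} [hp : Fact p.Prime] (T : Sylow p G) {R : Subgroup G}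
    (hR : IsPGroup p R) (hBR : baumannSubgroupOf p (T : Subgroup G) ≤ normalizer (R : Set G)) :
    R ≤ normalizer (baumannSubgroupOf p (T : Subgroup G) : Set G) := by
  have hBp : IsPGroup p (baumannSubgroupOf p (T : Subgroup G)) := T.isPGroup'.to_le (baumann_le p _)
  have h1 : IsPGroup p ↥(baumannSubgroupOf p (T : Subgroup G) ⊔ R) :=
    IsPGroup.to_sup_of_normal_right' hBp hR hBR
  obtain ⟨T₁, hT₁⟩ := h1.exists_le_sylow
  obtain ⟨g, hg⟩ := MulAction.exists_smul_eq G T T₁
  have hg' : (T₁ : Subgroup G) = MulAut.conj g • (T : Subgroup G) := by rw [← hg]; rfl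
  have h2 := baumann_eq_of_conj hg' ((thompson_le_baumann p _).trans (le_sup_left.trans hT₁)) (le_sup_left.trans hT₁)
  rw [← h2]
  exact (le_sup_right.trans hT₁).trans (le_normalizer.trans (normalizer_le_baumann p _))

/-- elements of order prime to `p` in `E ⊔ B` lie in `E` -/
theorem mem_of_coprime [Finite G] {p : ℕ} [hp : Fact p.Prime] {E B : Subgroup G} (hB : IsPGroup p B)
    (hBE : B ≤ normalizer (E : Set G)) {x : G} (hx : x ∈ E ⊔ B) (hcop : (orderOf x).Coprime p) : x ∈ E := by
  obtain ⟨n, hn⟩ := IsPGroup.iff_card.1 hB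
  have h1 : E.relIndex (E ⊔ B) ∣ p ^ n := by
    rw [sup_comm, CfsgLib.Coprime.relIndex_sup_of_le_normalizer hBE, ← hn]
    exact relIndex_dvd_card _ _
  obtain ⟨j, -, hj⟩ := (Nat.dvd_prime_pow hp.out).1 h1
  have hN : (E.subgroupOf (E ⊔ B)).Normal := by
    rw [normal_subgroupOf_iff_le_normalizer le_sup_left]
    exact sup_le le_normalizer hBE
  have h2 : x ^ p ^ j ∈ E := by
    have := pow_index_mem (E.subgroupOf (E ⊔ B)) (⟨x, hx⟩ : ↥(E ⊔ B))
    have h3 : (E.subgroupOf (E ⊔ B)).index = p ^ j := hj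
    rw [h3, mem_subgroupOf] at this
    exact this
  have h3 : x ∈ zpowers (x ^ p ^ j) := by
    rw [mem_zpowers_pow_iff]
    exact (hcop.symm.pow_left j)
  exact (zpowers_le.2 h2) h3

theorem pResidualOf_eq (p : ℕ) (E : Subgroup G) :
    pResidualOf p E = closure {g : G | g ∈ E ∧ Nat.Coprime (orderOf g) p} := by
  rw [pResidualOf, pResidual, MonoidHom.map_closure]
  congr 1
  ext x
  constructor
  · rintro ⟨y, hy, rfl⟩
    refine ⟨y.2, ?_⟩
    have : orderOf (E.subtype y) = orderOf y := orderOf_injective _ (subtype_injective E) y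
    rw [this]; exact hy
  · rintro ⟨h1, h2⟩
    refine ⟨⟨x, h1⟩, ?_, rfl⟩
    show Nat.Coprime _ _
    rw [← orderOf_injective _ (subtype_injective E)]
    exact h2

theorem le_normalizer_of_gen [Finite G] {p : ℕ} {E R : Subgroup G} (hE : pResidualOf p E = E)
    (h : ∀ r ∈ R, ∀ e ∈ E, Nat.Coprime (orderOf e) p → r * e * r⁻¹ ∈ E) : R ≤ normalizer (E : Set G) := by
  apply le_normalizer_of_conj
  intro r hr e he
  rw [← hE, pResidualOf_eq] at he
  induction he using closure_induction with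
  | mem x hx => exact h r hr x hx.1 hx.2
  | one => simp
  | mul a b _ _ iha ihb =>
    have : r * (a * b) * r⁻¹ = (r * a * r⁻¹) * (r * b * r⁻¹) := by group
    rw [this]; exact mul_mem iha ihb
  | inv a _ iha =>
    have : r * a⁻¹ * r⁻¹ = (r * a * r⁻¹)⁻¹ := by group
    rw [this]; exact inv_mem iha

theorem le_normalizer_of_comm {E B : Subgroup G} (h : ⁅E, B⁆ ≤ E) : B ≤ normalizer (E : Set G) := by
  exact le_normalizer_iff_commutator_le_left.2 h

/-- S2983 -/
theorem normalizes_block [Finite G] {p : ℕ} [hp : Fact p.Prime] (T : Sylow p G) {E : Subgroup G}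
    (hE1 : pResidualOf p E = E) (hE2 : ⁅E, baumannSubgroupOf p (T : Subgroup G)⁆ = E)
    {Q : Subgroup G} (hQ : IsPGroup p Q) (hBQ : baumannSubgroupOf p (T : Subgroup G) ≤ normalizer (Q : Set G))
    (hEQ : E ≤ normalizer (Q : Set G)) : Q ≤ normalizer (E : Set G) := by
  have h1 := le_normalizer_baumann T hQ hBQ
  set B := baumannSubgroupOf p (T : Subgroup G) with hB
  have hBp : IsPGroup p B := T.isPGroup'.to_le (baumann_le p _)
  have hBE : B ≤ normalizer (E : Set G) := le_normalizer_of_comm hE2.le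
  -- `Q` conjugates `e b e⁻¹` into `E ⊔ B`
  have h2 : ∀ r ∈ Q, ∀ e ∈ E, ∀ b ∈ B, r * (e * b * e⁻¹) * r⁻¹ ∈ E ⊔ B := by
    intro r hr e he b hb
    have hr' : e⁻¹ * r * e ∈ Q := by
      have := (mem_normalizer_iff.1 (inv_mem (hEQ he)) r).1 hr
      rwa [inv_inv] at this
    have h3 : (e⁻¹ * r * e) * b * (e⁻¹ * r * e)⁻¹ ∈ B := (mem_normalizer_iff.1 (h1 hr') b).1 hb
    have h4 : r * (e * b * e⁻¹) * r⁻¹ = e * ((e⁻¹ * r * e) * b * (e⁻¹ * r * e)⁻¹) * e⁻¹ := by group
    rw [h4]
    exact mul_mem (mul_mem (mem_sup_left he) (mem_sup_right h3)) (inv_mem (mem_sup_left he))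
  have h3 : ∀ r ∈ Q, ∀ e ∈ E, r * e * r⁻¹ ∈ E ⊔ B := by
    intro r hr e he
    rw [← hE2, Subgroup.commutator_def] at he
    induction he using closure_induction with
    | mem x hx =>
      obtain ⟨e, he, b, hb, rfl⟩ := hx
      have h4 : r * ⁅e, b⁆ * r⁻¹ = (r * (e * b * e⁻¹) * r⁻¹) * (r * (1 * b * 1⁻¹) * r⁻¹)⁻¹ := by
        rw [commutatorElement_def]; group
      rw [h4]
      exact mul_mem (h2 r hr e he b hb) (inv_mem (h2 r hr 1 (one_mem _) b hb))
    | one => simp
    | mul a b _ _ iha ihb =>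
      have : r * (a * b) * r⁻¹ = (r * a * r⁻¹) * (r * b * r⁻¹) := by group
      rw [this]; exact mul_mem iha ihb
    | inv a _ iha =>
      have : r * a⁻¹ * r⁻¹ = (r * a * r⁻¹)⁻¹ := by group
      rw [this]; exact inv_mem iha
  apply le_normalizer_of_gen hE1
  intro r hr e he hc
  apply mem_of_coprime hBp hBE (h3 r hr e he)
  have : orderOf (r * e * r⁻¹) = orderOf e := by
    rw [← MulAut.conj_apply]
    exact orderOf_injective (MulAut.conj r).toMonoidHom (MulAut.conj r).injective e
  rw [this]; exact hc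

end CfsgLib.FgBlk
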