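import Mathlib
import Cfsg.Agent.LibFgBlk

set_option autoImplicit false

/-! Baumann blocks: irreducibility (helper5). -/

namespace CfsgLib.FgBlk
open Subgroup Cfsg
open scoped commutatorElement

section SL2

variable {F : Type*} [Field F]

/-- upper unipotent -/
def uu (t : F) : Matrix.SpecialLinearGroup (Fin 2) F := ⟨!![1, t; 0, 1], by simp⟩
/-- lower unipotent -/
def ll (t : F) : Matrix.SpecialLinearGroup (Fin 2) F := ⟨!![1, 0; t, 1], by simp⟩
/-- diagonal -/
def dd (a : F) (ha : a ≠ 0) : Matrix.SpecialLinearGroup (Fin 2) F := ⟨!![a, 0; 0, a⁻¹], by simp [ha]⟩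

theorem uu_mem {a : F} (ha : a ≠ 0) (ha2 : a ^ 2 ≠ 1) (s : F) :
    uu s ∈ commutator (Matrix.SpecialLinearGroup (Fin 2) F) := by
  have h1 : a ^ 2 - 1 ≠ 0 := sub_ne_zero.2 ha2
  have h : uu s = ⁅dd a ha, uu (s / (a ^ 2 - 1))⁆ := by
    rw [eq_comm, commutatorElement_def, mul_inv_eq_iff_eq_mul, mul_inv_eq_iff_eq_mul]
    apply Subtype.ext
    show (!![a, 0; 0, a⁻¹] : Matrix (Fin 2) (Fin 2) F) * !![1, s / (a ^ 2 - 1); 0, 1] =
      !![1, s; 0, 1] * !![1, s / (a ^ 2 - 1); 0, 1] * !![a, 0; 0, a⁻¹]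
    rw [Matrix.mul_fin_two, Matrix.mul_fin_two, Matrix.mul_fin_two]
    ext i j
    fin_cases i <;> fin_cases j <;> simp
    field_simp
    ring
  rw [h]
  exact commutator_mem_commutator (mem_top _) (mem_top _)

theorem ll_mem {a : F} (ha : a ≠ 0) (ha2 : a ^ 2 ≠ 1) (s : F) :
    ll s ∈ commutator (Matrix.SpecialLinearGroup (Fin 2) F) := by
  have h1 : 1 - a ^ 2 ≠ 0 := sub_ne_zero.2 (Ne.symm ha2)
  have h : ll s = ⁅dd a ha, ll (s * a ^ 2 / (1 - a ^ 2))⁆ := by
    rw [eq_comm, commutatorElement_def, mul_inv_eq_iff_eq_mul, mul_inv_eq_iff_eq_mul]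
    apply Subtype.ext
    show (!![a, 0; 0, a⁻¹] : Matrix (Fin 2) (Fin 2) F) * !![1, 0; s * a ^ 2 / (1 - a ^ 2), 1] =
      !![1, 0; s, 1] * !![1, 0; s * a ^ 2 / (1 - a ^ 2), 1] * !![a, 0; 0, a⁻¹]
    rw [Matrix.mul_fin_two, Matrix.mul_fin_two, Matrix.mul_fin_two]
    ext i j
    fin_cases i <;> fin_cases j <;> simp
    field_simp
    ring
  rw [h]
  exact commutator_mem_commutator (mem_top _) (mem_top _)

/-- a commutator -/
def cc : Matrix.SpecialLinearGroup (Fin 2) F := ⟨!![3, -1; 1, 0], by simp⟩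

theorem cc_mem : (cc : Matrix.SpecialLinearGroup (Fin 2) F) ∈ commutator (Matrix.SpecialLinearGroup (Fin 2) F) := by
  have h : (cc : Matrix.SpecialLinearGroup (Fin 2) F) = ⁅uu (1 : F), ll (1 : F)⁆ := by
    rw [eq_comm, commutatorElement_def, mul_inv_eq_iff_eq_mul, mul_inv_eq_iff_eq_mul]
    apply Subtype.ext
    show (!![1, 1; 0, 1] : Matrix (Fin 2) (Fin 2) F) * !![1, 0; 1, 1] =
      !![3, -1; 1, 0] * !![1, 0; 1, 1] * !![1, 1; 0, 1]
    rw [Matrix.mul_fin_two, Matrix.mul_fin_two, Matrix.mul_fin_two]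
    ext i j
    fin_cases i <;> fin_cases j <;> simp <;> ring
  rw [h]
  exact commutator_mem_commutator (mem_top _) (mem_top _)

theorem sl2_irred (A : AddSubgroup (Fin 2 → F))
    (hA : ∀ g ∈ commutator (Matrix.SpecialLinearGroup (Fin 2) F), ∀ v ∈ A,
      (g : Matrix (Fin 2) (Fin 2) F).mulVec v ∈ A) : A = ⊥ ∨ A = ⊤ := by
  rw [or_iff_not_imp_left]
  intro hne
  obtain ⟨⟨v, hv⟩, hv0⟩ := AddSubgroup.ne_bot_iff_exists_ne_zero.1 hne
  replace hv0 : v ≠ 0 := fun h => hv0 (Subtype.ext h)
  -- it suffices to get all `(t, 0)` and `(0, t)`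
  have fin : (∀ t : F, (![t, 0] : Fin 2 → F) ∈ A) → (∀ t : F, (![0, t] : Fin 2 → F) ∈ A) → A = ⊤ := by
    intro h1 h2
    rw [eq_top_iff]
    intro w _
    have : w = ![w 0, 0] + ![0, w 1] := by
      ext i; fin_cases i <;> simp
    rw [this]
    exact A.add_mem (h1 _) (h2 _)
  have hv' : v = ![v 0, v 1] := by ext i; fin_cases i <;> rfl
  have hv0' : v 0 ≠ 0 ∨ v 1 ≠ 0 := by
    by_contra h
    push Not at h
    apply hv0
    rw [hv', h.1, h.2]
    ext i; fin_cases i <;> rfl
  by_cases hc : ∃ a : F, a ≠ 0 ∧ a ^ 2 ≠ 1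
  · obtain ⟨a, ha, ha2⟩ := hc
    have hu : ∀ w ∈ A, ∀ s : F, (![s * w 1, 0] : Fin 2 → F) ∈ A := by
      intro w hw s
      have h1 := A.sub_mem (hA _ (uu_mem ha ha2 s) w hw) hw
      convert h1 using 1
      ext i; fin_cases i <;> simp [uu, Matrix.mulVec, dotProduct, Fin.sum_univ_two]
    have hl : ∀ w ∈ A, ∀ s : F, (![0, s * w 0] : Fin 2 → F) ∈ A := by
      intro w hw s
      have h1 := A.sub_mem (hA _ (ll_mem ha ha2 s) w hw) hw
      convert h1 using 1
      ext i; fin_cases i <;> simp [ll, Matrix.mulVec, dotProduct, Fin.sum_univ_two]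
    rcases hv0' with h | h
    · have h1 : ∀ t : F, (![0, t] : Fin 2 → F) ∈ A := by
        intro t
        have := hl v hv (t / v 0)
        rwa [div_mul_cancel₀ _ h] at this
      refine fin ?_ h1
      intro t
      have := hu _ (h1 1) t
      simpa using this
    · have h1 : ∀ t : F, (![t, 0] : Fin 2 → F) ∈ A := by
        intro t
        have := hu v hv (t / v 1)
        rwa [div_mul_cancel₀ _ h] at this
      refine fin h1 ?_
      intro t
      have := hl _ (h1 1) t
      simpa using this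
  · push Not at hc
    have h3 : ∀ t : F, t = 0 ∨ t = 1 ∨ t = -1 := by
      intro t
      by_cases ht : t = 0
      · exact Or.inl ht
      · exact Or.inr (sq_eq_one_iff.1 (hc t ht))
    have hs : ∀ w ∈ A, ∀ t : F, (fun i => t * w i) ∈ A := by
      intro w hw t
      rcases h3 t with rfl | rfl | rfl
      · have h := A.zero_mem
        convert h using 1
        ext i; simp
      · simpa using hw
      · have := A.neg_mem hw
        convert this using 1
        ext i; simp
    have hw := hA _ cc_mem v hv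
    have hw' : (![3 * v 0 - v 1, v 0] : Fin 2 → F) ∈ A := by
      convert hw using 1
      ext i; fin_cases i <;> simp [cc, Matrix.mulVec, dotProduct, Fin.sum_univ_two]
      ring
    set x := v 0 with hx
    set y := v 1 with hy
    have hD : x ^ 2 - 3 * x * y + y ^ 2 ≠ 0 := by
      have h2 : (2 : F) = 0 ∨ (3 : F) = 0 := by
        rcases h3 (2 : F) with h | h | h
        · exact Or.inl h
        · exfalso
          have : (1 : F) = 0 := by linear_combination h
          exact one_ne_zero this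
        · right; linear_combination h
      rcases h2 with h2 | h2
      · have e1 : (-1 : F) = 1 := by linear_combination -h2
        rw [e1] at h3
        rcases h3 x with h | h | h <;> rcases h3 y with h' | h' | h' <;> rw [h, h'] at hv0' ⊢ <;>
          first
            | (exfalso; simp at hv0'; done)
            | (intro h5; apply one_ne_zero (α := F); linear_combination h5)
            | (intro h5; apply one_ne_zero (α := F); linear_combination h5 + h2)
            | (intro h5; apply one_ne_zero (α := F); linear_combination -h5)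
      · rcases h3 x with h | h | h <;> rcases h3 y with h' | h' | h' <;> rw [h, h'] at hv0' ⊢ <;>
          first
            | (exfalso; simp at hv0'; done)
            | (intro h5; apply one_ne_zero (α := F); linear_combination h5)
            | (intro h5; apply one_ne_zero (α := F); linear_combination -h5)
            | (intro h5; apply one_ne_zero (α := F); linear_combination -h5)
            | (intro h5; apply one_ne_zero (α := F); linear_combination h5 - 2 * h2)
            | (intro h5; apply one_ne_zero (α := F); linear_combination -h5 + 2 * h2)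
    have e : ∀ t : F, t / (x ^ 2 - 3 * x * y + y ^ 2) * (x ^ 2 - 3 * x * y + y ^ 2) = t := fun t => div_mul_cancel₀ _ hD
    refine fin ?_ ?_
    · intro t
      have h4 := A.sub_mem (hs v hv (t / (x ^ 2 - 3 * x * y + y ^ 2) * x)) (hs _ hw' (t / (x ^ 2 - 3 * x * y + y ^ 2) * y))
      convert h4 using 1
      ext i; fin_cases i
      · simp only [Fin.zero_eta, Fin.isValue, Matrix.cons_val_zero, Pi.sub_apply]
        rw [← hx]
        linear_combination -(e t)
      · simp
        rw [← hy]
        ring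
    · intro t
      have h4 := A.sub_mem (hs _ hw' (t / (x ^ 2 - 3 * x * y + y ^ 2) * x)) (hs v hv (t / (x ^ 2 - 3 * x * y + y ^ 2) * (3 * x - y)))
      convert h4 using 1
      ext i; fin_cases i
      · simp
        rw [← hx]
        ring
      · simp only [Fin.mk_one, Fin.isValue, Matrix.cons_val_one, Matrix.cons_val_zero, Pi.sub_apply]
        rw [← hy]
        linear_combination -(e t)

end SL2

section Alt

variable {m : ℕ}

theorem three_cycle_mem {α : Type*} [DecidableEq α] [Fintype α] {a b c : α} (hab : a ≠ b) (hbc : b ≠ c) :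
    (Equiv.swap a b * Equiv.swap b c) ∈ alternatingGroup α := by
  rw [Equiv.Perm.mem_alternatingGroup, map_mul, Equiv.Perm.sign_swap hab, Equiv.Perm.sign_swap hbc]
  rfl

theorem three_cycle_apply {α : Type*} [DecidableEq α] {a b c : α} (hab : a ≠ b) (hbc : b ≠ c) (hac : a ≠ c) :
    (Equiv.swap a b * Equiv.swap b c) a = b ∧ (Equiv.swap a b * Equiv.swap b c) b = c ∧
      (Equiv.swap a b * Equiv.swap b c) c = a ∧
      ∀ x, x ≠ a → x ≠ b → x ≠ c → (Equiv.swap a b * Equiv.swap b c) x = x := by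
  refine ⟨?_, ?_, ?_, ?_⟩
  · rw [Equiv.Perm.mul_apply, Equiv.swap_apply_of_ne_of_ne hab hac, Equiv.swap_apply_left]
  · rw [Equiv.Perm.mul_apply, Equiv.swap_apply_left, Equiv.swap_apply_of_ne_of_ne hac.symm hbc.symm]
  · rw [Equiv.Perm.mul_apply, Equiv.swap_apply_right, Equiv.swap_apply_right]
  · intro x h1 h2 h3
    rw [Equiv.Perm.mul_apply, Equiv.swap_apply_of_ne_of_ne h2 h3, Equiv.swap_apply_of_ne_of_ne h1 h2]

theorem alt_irred (A : AddSubgroup (Fin (2 * m + 1) → ZMod 2)) (h0 : ∀ v ∈ A, ∑ i, v i = 0)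
    (hA : ∀ g ∈ alternatingGroup (Fin (2 * m + 1)), ∀ v ∈ A, (fun i => v (g⁻¹ i)) ∈ A) :
    A = ⊥ ∨ ∀ v : Fin (2 * m + 1) → ZMod 2, ∑ i, v i = 0 → v ∈ A := by
  classical
  rw [or_iff_not_imp_left]
  intro hne
  obtain ⟨⟨v, hv⟩, hv0⟩ := AddSubgroup.ne_bot_iff_exists_ne_zero.1 hne
  replace hv0 : v ≠ 0 := fun h => hv0 (Subtype.ext h)
  have h2 : ∀ t : ZMod 2, t = 0 ∨ t = 1 := by decide
  obtain ⟨a, ha⟩ : ∃ a, v a = 1 := by
    by_contra h
    push Not at h
    apply hv0
    ext i
    exact (h2 (v i)).resolve_right (h i)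
  have hs := h0 v hv
  obtain ⟨b, hab, hb⟩ : ∃ b, a ≠ b ∧ v b = 1 := by
    by_contra h
    push Not at h
    rw [Finset.sum_eq_single a (fun i _ hi => (h2 (v i)).resolve_right (h i hi.symm)) (by simp), ha] at hs
    exact one_ne_zero hs
  obtain ⟨c, hc⟩ : ∃ c, v c = 0 := by
    by_contra h
    push Not at h
    rw [Finset.sum_congr rfl (fun i _ => (h2 (v i)).resolve_left (h i))] at hs
    simp at hs
    have h5 : (2 : ZMod 2) = 0 := rfl
    rw [h5, zero_mul, zero_add] at hs
    exact one_ne_zero hs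
  have hac : a ≠ c := by rintro rfl; rw [ha] at hc; exact one_ne_zero hc
  have hbc : b ≠ c := by rintro rfl; rw [hb] at hc; exact one_ne_zero hc
  -- pairs
  let δ : Fin (2 * m + 1) → Fin (2 * m + 1) → (Fin (2 * m + 1) → ZMod 2) := fun i j => Pi.single i 1 + Pi.single j 1
  have hbase : δ b c ∈ A := by
    obtain ⟨e1, e2, e3, e4⟩ := three_cycle_apply hab hbc hac
    have h5 := hA _ (inv_mem (three_cycle_mem hab hbc)) v hv
    have h6 := A.add_mem hv h5
    convert h6 using 1
    funext i
    simp only [δ, Pi.add_apply, inv_inv]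
    by_cases hia : i = a
    · subst hia
      rw [e1, ha, hb, Pi.single_eq_of_ne hab, Pi.single_eq_of_ne hac]; rfl
    by_cases hib : i = b
    · subst hib
      rw [e2, hb, hc, Pi.single_eq_same, Pi.single_eq_of_ne hbc]
    by_cases hic : i = c
    · subst hic
      rw [e3, hc, ha, Pi.single_eq_of_ne hbc.symm, Pi.single_eq_same]
    · rw [e4 i hia hib hic, Pi.single_eq_of_ne hib, Pi.single_eq_of_ne hic]
      rcases h2 (v i) with h | h <;> rw [h] <;> rfl
  have hmove : ∀ g ∈ alternatingGroup (Fin (2 * m + 1)), ∀ i j, δ i j ∈ A → δ (g i) (g j) ∈ A := by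
    intro g hg i j h
    have h5 := hA g hg _ h
    convert h5 using 1
    funext k
    simp only [δ, Pi.add_apply, Pi.single_apply]
    have e : ∀ x, (k = g x) ↔ (g⁻¹ k = x) := by
      intro x
      rw [Equiv.Perm.inv_eq_iff_eq]
    exact congrArg₂ (· + ·) (if_congr (e i) rfl rfl) (if_congr (e j) rfl rfl)
  have hb1 : ∀ d, δ b d ∈ A := by
    intro d
    by_cases hbd : b = d
    · subst hbd
      have : δ b b = 0 := by
        funext k; simp only [δ, Pi.add_apply, Pi.zero_apply]
        rcases h2 ((Pi.single b 1 : Fin (2 * m + 1) → ZMod 2) k) with h | h <;> rw [h] <;> rfl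
      rw [this]; exact A.zero_mem
    by_cases hcd : c = d
    · rw [← hcd]; exact hbase
    · obtain ⟨e1, e2, e3, e4⟩ := three_cycle_apply (a := c) (b := b) (c := d) hbc.symm hbd hcd
      have h5 := hmove _ (three_cycle_mem (a := c) (b := b) (c := d) hbc.symm hbd) b c hbase
      rw [e1, e2] at h5
      have : δ d b = δ b d := add_comm _ _
      rwa [this] at h5
  intro w hw
  have h7 : w = ∑ i, (if w i = 1 then δ b i else 0) := by
    funext k
    rw [Finset.sum_apply]
    have h8 : ∀ i, (if w i = 1 then δ b i else 0) k = w i * (Pi.single b 1 : Fin (2 * m + 1) → ZMod 2) k + w i * (Pi.single i 1 : Fin (2 * m + 1) → ZMod 2) k := by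
      intro i
      rcases h2 (w i) with h | h
      · rw [h]; simp
      · rw [h]; simp [δ]
    rw [Finset.sum_congr rfl (fun i _ => h8 i), Finset.sum_add_distrib, ← Finset.sum_mul, hw, zero_mul, zero_add,
      Finset.sum_eq_single k]
    · rw [Pi.single_eq_same, mul_one]
    · intro i _ hik
      rw [Pi.single_eq_of_ne hik.symm, mul_zero]
    · simp
  rw [h7]
  apply AddSubgroup.sum_mem
  intro i _
  split_ifs
  · exact hb1 i
  · exact A.zero_mem

end Alt

end CfsgLib.FgBlk
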