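import Mathlib
import Cfsg.Agent.LibFgBlk2
import Cfsg.Agent.LibLE3

set_option autoImplicit false

/-! Baumann blocks: location of `[Ω₁Z(Q), E]` (helper5). -/

namespace CfsgLib.FgBlk
open Subgroup Cfsg CfsgLib.H2Thomp CfsgLib.H2Misc CfsgLib.Coprime
open scoped commutatorElement

universe u

variable {G : Type u} [Group G]

theorem irred_SL2 {F : Type*} [Field F] {E U U₀ X : Subgroup G}
    (h : ActsAsSL2OnSection F (commutator (Matrix.SpecialLinearGroup (Fin 2) F)) E U U₀)
    (hX : X ≤ U) (hE : E ≤ normalizer (X : Set G)) : X ≤ U₀ ∨ U ≤ X ⊔ U₀ := by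
  obtain ⟨h1, h2, ρ, ψ, h3, h4, h5, h6⟩ := h
  let A : AddSubgroup (Fin 2 → F) := Subgroup.toAddSubgroup ((X.subgroupOf U).map ψ)
  have hmem : ∀ v, v ∈ A ↔ ∃ x : ↥U, (x : G) ∈ X ∧ Multiplicative.toAdd (ψ x) = v := by
    intro v
    constructor
    · rintro ⟨x, hx, hxv⟩
      exact ⟨x, mem_subgroupOf.1 hx, hxv⟩
    · rintro ⟨x, hx, hxv⟩
      exact ⟨x, mem_subgroupOf.2 hx, hxv⟩
  have hA : ∀ g ∈ commutator (Matrix.SpecialLinearGroup (Fin 2) F), ∀ v ∈ A,
      (g : Matrix (Fin 2) (Fin 2) F).mulVec v ∈ A := by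
    intro g hg v hv
    rw [← h3] at hg
    obtain ⟨e, rfl⟩ := hg
    obtain ⟨x, hx, rfl⟩ := (hmem v).1 hv
    obtain ⟨w, hw, hw2⟩ := h6 e x
    rw [hmem]
    refine ⟨w, ?_, hw2⟩
    rw [hw]
    exact (mem_normalizer_iff.1 (hE e.2) _).1 hx
  rcases sl2_irred A hA with h | h
  · left
    intro x hx
    have h7 : Multiplicative.toAdd (ψ ⟨x, hX hx⟩) ∈ A := (hmem _).2 ⟨_, hx, rfl⟩
    rw [h, AddSubgroup.mem_bot] at h7
    exact (h5 ⟨x, hX hx⟩).1 (Multiplicative.toAdd.injective h7)
  · right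
    intro u hu
    have h7 : Multiplicative.toAdd (ψ ⟨u, hu⟩) ∈ A := by rw [h]; trivial
    obtain ⟨x, hx, hxu⟩ := (hmem _).1 h7
    have h8 : ψ (x⁻¹ * ⟨u, hu⟩) = 1 := by
      rw [map_mul, map_inv, Multiplicative.toAdd.injective hxu, inv_mul_cancel]
    have h9 := (h5 _).1 h8
    have h10 : u = (x : G) * ((x⁻¹ * ⟨u, hu⟩ : ↥U) : G) := by simp
    rw [h10]
    exact mul_mem (mem_sup_left hx) (mem_sup_right h9)

theorem irred_perm {m : ℕ} {E U U₀ X : Subgroup G}
    (h : ActsAsOddPermModuleOnSection (2 * m + 1) (alternatingGroup (Fin (2 * m + 1))) E U U₀)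
    (hX : X ≤ U) (hE : E ≤ normalizer (X : Set G)) : X ≤ U₀ ∨ U ≤ X ⊔ U₀ := by
  obtain ⟨h1, h2, ρ, ψ, h3, h4, h4', h5, h6⟩ := h
  let A : AddSubgroup (Fin (2 * m + 1) → ZMod 2) := Subgroup.toAddSubgroup ((X.subgroupOf U).map ψ)
  have hmem : ∀ v, v ∈ A ↔ ∃ x : ↥U, (x : G) ∈ X ∧ Multiplicative.toAdd (ψ x) = v := by
    intro v
    constructor
    · rintro ⟨x, hx, hxv⟩
      exact ⟨x, mem_subgroupOf.1 hx, hxv⟩
    · rintro ⟨x, hx, hxv⟩
      exact ⟨x, mem_subgroupOf.2 hx, hxv⟩
  have hA : ∀ g ∈ alternatingGroup (Fin (2 * m + 1)), ∀ v ∈ A, (fun i => v (g⁻¹ i)) ∈ A := by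
    intro g hg v hv
    rw [← h3] at hg
    obtain ⟨e, rfl⟩ := hg
    obtain ⟨x, hx, rfl⟩ := (hmem v).1 hv
    obtain ⟨w, hw, hw2⟩ := h6 e x
    rw [hmem]
    refine ⟨w, ?_, funext hw2⟩
    rw [hw]
    exact (mem_normalizer_iff.1 (hE e.2) _).1 hx
  have h0 : ∀ v ∈ A, ∑ i, v i = 0 := by
    intro v hv
    obtain ⟨x, hx, rfl⟩ := (hmem v).1 hv
    exact h4 x
  rcases alt_irred A h0 hA with h | h
  · left
    intro x hx
    have h7 : Multiplicative.toAdd (ψ ⟨x, hX hx⟩) ∈ A := (hmem _).2 ⟨_, hx, rfl⟩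
    rw [h, AddSubgroup.mem_bot] at h7
    exact (h5 ⟨x, hX hx⟩).1 (Multiplicative.toAdd.injective h7)
  · right
    intro u hu
    have h7 : Multiplicative.toAdd (ψ ⟨u, hu⟩) ∈ A := h _ (h4 _)
    obtain ⟨x, hx, hxu⟩ := (hmem _).1 h7
    have h8 : ψ (x⁻¹ * ⟨u, hu⟩) = 1 := by
      rw [map_mul, map_inv, Multiplicative.toAdd.injective hxu, inv_mul_cancel]
    have h9 := (h5 _).1 h8
    have h10 : u = (x : G) * ((x⁻¹ * ⟨u, hu⟩ : ↥U) : G) := by simp
    rw [h10]
    exact mul_mem (mem_sup_left hx) (mem_sup_right h9)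

/-- `[V, E, E] = [V, E]` for `E = O^p(E)` acting on a `p`-group. -/
theorem comm_comm_of_residual [Finite G] {p : ℕ} [hp : Fact p.Prime] {V E : Subgroup G} (hV : IsPGroup p V)
    (hE : pResidualOf p E = E) (hEV : E ≤ normalizer (V : Set G)) : ⁅⁅V, E⁆, E⁆ = ⁅V, E⁆ := by
  have hEU : E ≤ normalizer ((⁅V, E⁆ : Subgroup G) : Set G) := normalizer_commutator_ge_right V E
  have hEU2 : E ≤ normalizer ((⁅⁅V, E⁆, E⁆ : Subgroup G) : Set G) := normalizer_commutator_ge_right _ E
  apply le_antisymm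
  · exact le_normalizer_iff_commutator_le_left.1 hEU
  rw [commutator_le]
  intro v hv x hx
  have key : ∀ x ∈ E, ∀ v ∈ V, ⁅v, x⁆ ∈ ⁅⁅V, E⁆, E⁆ := by
    intro x hx
    have hx' := hx
    rw [← hE, pResidualOf_eq] at hx'
    clear hx
    induction hx' using closure_induction with
    | mem x hx =>
      intro v hv
      obtain ⟨n, hn⟩ := IsPGroup.iff_card.1 hV
      have hcop : (Nat.card (zpowers x)).Coprime (Nat.card V) := by
        rw [Nat.card_zpowers, hn]; exact Nat.Coprime.pow_right _ hx.2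
      have hxE : zpowers x ≤ E := zpowers_le.2 hx.1
      have hs : Group.IsSolvable V := by
        have := hV.isNilpotent
        infer_instance
      have h1 := commutator_commutator_eq (hxE.trans hEV) hcop (Or.inr hs)
      have h2 : ⁅v, x⁆ ∈ ⁅V, zpowers x⁆ := commutator_mem_commutator hv (mem_zpowers x)
      rw [← h1] at h2
      exact commutator_mono (commutator_mono le_rfl hxE) hxE h2
    | one => intro v hv; simp
    | mul x y hx hy ihx ihy =>
      intro v hv
      have hxE : x ∈ E := by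
        rw [← hE, pResidualOf_eq]; exact hx
      have h1 : ⁅v, x * y⁆ = ⁅v, x⁆ * (x * ⁅v, y⁆ * x⁻¹) := by
        simp only [commutatorElement_def]; group
      rw [h1]
      exact mul_mem (ihx v hv) ((mem_normalizer_iff.1 (hEU2 hxE) _).1 (ihy v hv))
    | inv x hx ihx =>
      intro v hv
      have hxE : x ∈ E := by
        rw [← hE, pResidualOf_eq]; exact hx
      have h1 : ⁅v, x⁻¹⁆ = x⁻¹ * ⁅v, x⁆⁻¹ * x⁻¹⁻¹ := by
        simp only [commutatorElement_def]; group
      rw [h1]
      exact (mem_normalizer_iff.1 (inv_mem (hEU2 hxE)) _).1 (inv_mem (ihx v hv))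
  exact key x hx v hv

/-- the key lemma on invariant abelian subgroups of `O_p(E)` -/
theorem key_block [Finite G] {p : ℕ} [hp : Fact p.Prime] {T E X : Subgroup G} (hE : IsBaumannBlock p T E)
    (hXQ : X ≤ pCoreOf p E) (hXc : ∀ x ∈ X, ∀ y ∈ X, x * y = y * x) (hXE : E ≤ normalizer (X : Set G))
    (hXX : ⁅X, E⁆ = X) (hX : X ≠ ⊥) : ⁅omegaOneCenter p (pCoreOf p E), E⁆ = X := by
  set Q := pCoreOf p E with hQ
  set W := omegaOneCenter p Q with hW
  have main : X ≤ W ∧ W ≤ X ⊔ (W ⊓ centralizer (E : Set G)) := by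
    have hno : ¬ X ≤ W ⊓ centralizer (E : Set G) := by
      intro h
      apply hX
      rw [← hXX, commutator_eq_bot_iff_le_centralizer]
      exact h.trans inf_le_right
    obtain ⟨-, -, -, -, h⟩ := hE
    rcases h with ⟨F, iF, iF2, n, hn, -, h1, h2⟩ | ⟨-, m, -, h1, h2⟩
    · have hXW : X ≤ W := by
        rcases h2 with h2 | ⟨-, h3, h4, -, h5, h6, -⟩
        · rw [← hQ, ← hW] at h2; rw [← h2]; exact hXQ
        · rcases irred_SL2 h3 hXQ hXE with h7 | h7
          · exact h7
          · exfalso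
            have hWc : W ≤ centralizer (Q : Set G) := (omegaOne_le p _).trans inf_le_right
            have hWQ : W ≤ Q := (omegaOne_le p _).trans inf_le_left
            have hQc : Q ≤ centralizer (Q : Set G) := by
              refine h7.trans (sup_le ?_ hWc)
              intro x hx
              rw [mem_centralizer_iff]
              intro q hq
              have hq2 := h7 hq
              have : X ⊔ W ≤ centralizer ({x} : Set G) := by
                refine sup_le (fun y hy => ?_) (fun y hy => ?_)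
                · rw [mem_centralizer_singleton_iff]; exact hXc _ hy _ hx
                · rw [mem_centralizer_singleton_iff]
                  exact (mem_centralizer_iff.1 (hWc hy) x (hXQ hx)).symm
              have := mem_centralizer_singleton_iff.1 (this hq2)
              exact this
            have h8 : ⁅Q, Q⁆ = ⊥ := commutator_eq_bot_iff_le_centralizer.2 hQc
            rw [h8] at h4
            rw [h5] at h6
            rw [← h4] at h6
            rw [Subgroup.card_bot] at h6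
            have h9 : n = 0 := by
              by_contra h9
              have : 1 < 3 ^ n := Nat.one_lt_pow h9 (by norm_num)
              omega
            rw [h9, pow_zero] at hn
            have := Fintype.one_lt_card (α := F)
            omega
      exact ⟨hXW, (irred_SL2 h1 hXW hXE).resolve_left hno⟩
    · have hXW : X ≤ W := by rw [← hQ, ← hW] at h2; rw [← h2]; exact hXQ
      exact ⟨hXW, (irred_perm h1 hXW hXE).resolve_left hno⟩
  apply le_antisymm
  · rw [commutator_le]
    intro w hw e he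
    have hcomm : X ⊔ (W ⊓ centralizer (E : Set G)) ≤ W := sup_le main.1 inf_le_left
    -- w = x z
    have hmem := main.2 hw
    have hWcomm : ∀ x ∈ W, ∀ y ∈ W, x * y = y * x := fun x hx y hy =>
      center_comm Q x (omegaOne_le p _ hx) y (omegaOne_le p _ hy)
    have hn : W ⊓ centralizer (E : Set G) ≤ normalizer (X : Set G) := by
      apply le_normalizer_of_conj
      intro a ha x hx
      have : a * x * a⁻¹ = x := by
        rw [hWcomm a ha.1 x (main.1 hx)]; group
      rw [this]; exact hx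
    have hmem2 : w ∈ ((X ⊔ (W ⊓ centralizer (E : Set G)) : Subgroup G) : Set G) := hmem
    rw [Subgroup.coe_mul_of_right_le_normalizer_left _ _ hn] at hmem2
    obtain ⟨x, hx, z, hz, rfl⟩ := hmem2
    have h1 : ⁅x * z, e⁆ = ⁅x, e⁆ := by
      have : e * z = z * e := mem_centralizer_iff.1 hz.2 e he
      simp only [commutatorElement_def]
      calc x * z * e * (x * z)⁻¹ * e⁻¹ = x * (z * e) * z⁻¹ * x⁻¹ * e⁻¹ := by group
        _ = x * (e * z) * z⁻¹ * x⁻¹ * e⁻¹ := by rw [this]
        _ = x * e * x⁻¹ * e⁻¹ := by group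
    rw [h1, ← hXX]
    exact commutator_mem_commutator hx he
  · calc X = ⁅X, E⁆ := hXX.symm
      _ ≤ ⁅W, E⁆ := commutator_mono main.1 le_rfl

end CfsgLib.FgBlk
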