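import Mathlib
import Cfsg.Agent.LibFgBlk3

set_option autoImplicit false

/-! Baumann blocks: S2984 (helper5). -/

namespace CfsgLib.FgBlk
open Subgroup Cfsg CfsgLib.H2Thomp CfsgLib.H2Misc CfsgLib.Coprime
open scoped commutatorElement

universe u

variable {G : Type u} [Group G]

theorem omegaCenter_elab (p : ℕ) (P : Subgroup G) :
    ∀ x, x ∈ omegaOneCenter p P ↔ (x ∈ P ∧ x ∈ centralizer (P : Set G)) ∧ x ^ p = 1 := by
  intro x
  rw [omegaOneCenter, mem_omegaOne_of_comm (center_comm P)]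
  rfl

theorem mem_thompson_of_comm [Finite G] {p : ℕ} {T : Subgroup G} {x : G} (hx : x ∈ T)
    (hxJ : x ∈ centralizer (thompsonSubgroupOf p T : Set G)) (hxp : x ^ p = 1) : x ∈ thompsonSubgroupOf p T := by
  rw [thompsonSubgroupOf_eq] at hxJ ⊢
  obtain ⟨A, hA⟩ := exists_maxIn (P := T) (Q := IsElementaryAbelian p) bot_le (elab_bot p)
  have hAJ : A ≤ Je p T := le_sSup hA
  have hcomm : ∀ a ∈ A, a * x = x * a := fun a ha => mem_centralizer_iff.1 hxJ a (hAJ ha)
  have hAc := CfsgLib.H2Quad.comm_of_mulComm hA.2.1.1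
  have hB : IsElementaryAbelian p (A ⊔ zpowers x) := by
    have h1 : ∀ y ∈ A ⊔ zpowers x, ∃ a ∈ A, ∃ k : ℤ, y = a * x ^ k := by
      intro y hy
      have hn : zpowers x ≤ normalizer (A : Set G) := by
        rw [zpowers_le]
        rw [mem_normalizer_iff]
        intro a
        constructor
        · intro ha
          have : x * a * x⁻¹ = a := by rw [← hcomm a ha]; group
          rw [this]; exact ha
        · intro ha
          have h2 := hcomm _ ha
          have : a = x * a * x⁻¹ := by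
            have h3 : x⁻¹ * (x * a * x⁻¹ * x) = x⁻¹ * (x * (x * a * x⁻¹)) := by rw [h2]
            have h4 : x⁻¹ * (x * a * x⁻¹ * x) = a := by group
            have h5 : x⁻¹ * (x * (x * a * x⁻¹)) = x * a * x⁻¹ := by group
            rw [h4, h5] at h3
            exact h3
          rw [this]; exact ha
      have hy' : y ∈ ((A ⊔ zpowers x : Subgroup G) : Set G) := hy
      rw [Subgroup.coe_mul_of_right_le_normalizer_left _ _ hn] at hy'
      obtain ⟨a, ha, b, ⟨k, rfl⟩, rfl⟩ := hy'
      exact ⟨a, ha, k, rfl⟩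
    have hc : ∀ a ∈ A, ∀ k : ℤ, Commute a (x ^ k) := fun a ha k => (show Commute a x from hcomm a ha).zpow_right k
    refine ⟨CfsgLib.H2Quad.mulComm_of_comm ?_, ?_⟩
    · intro y hy z hz
      obtain ⟨a, ha, k, rfl⟩ := h1 y hy
      obtain ⟨b, hb, l, rfl⟩ := h1 z hz
      have e1 : Commute a b := hAc a ha b hb
      have e2 : Commute (x ^ k) (x ^ l) := (Commute.refl x).zpow_zpow k l
      exact ((e1.mul_right (hc a ha l)).mul_left ((hc b hb k).symm.mul_right e2))
    · intro y hy
      obtain ⟨a, ha, k, rfl⟩ := h1 y hy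
      rw [(hc a ha k).mul_pow, hA.2.1.2 a ha, one_mul, ← zpow_natCast, ← zpow_mul, mul_comm, zpow_mul, zpow_natCast, hxp, one_zpow]
  have h2 := hA.2.2 (A ⊔ zpowers x) (sup_le hA.1 (zpowers_le.2 hx)) hB
  have h3 : A = A ⊔ zpowers x := Subgroup.eq_of_le_of_card_ge le_sup_left h2
  apply hAJ
  rw [h3]
  exact mem_sup_right (mem_zpowers x)

theorem s2984 [Finite G] {p : ℕ} [hp : Fact p.Prime]
    (hG : Subgroup.centralizer (Cfsg.pCore p G : Set G) ≤ Cfsg.pCore p G) (T : Sylow p G) (E : Subgroup G)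
    (hE : Cfsg.IsBaumannBlock p (T : Subgroup G) E) :
    Cfsg.pResidualOf p (E ⊔ Cfsg.pCore p G) = E ∧
      ⁅Cfsg.omegaOneCenter p (Cfsg.pCoreOf p E), E⁆ ≤ Cfsg.omegaOneCenter p (Cfsg.pCore p G) ∧
      ⁅⁅Cfsg.omegaOneCenter p (Cfsg.pCoreOf p E), E⁆, Cfsg.thompsonSubgroupOf p (T : Subgroup G)⁆ ≠ ⊥ := by
  set P := pCore p G with hP
  have hPp : IsPGroup p P := CfsgLib.Cores.pCore_isPGroup p
  have hPT : P ≤ T := CfsgLib.Cores.pCore_le_sylow T
  have hPn : ∀ X : Subgroup G, X ≤ normalizer (P : Set G) := fun X => by rw [normalizer_eq_top]; exact le_top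
  obtain ⟨hE1, hE2, hE3, hE4, -⟩ := id hE
  have hPE : P ≤ normalizer (E : Set G) := normalizes_block T hE1 hE2 hPp (hPn _) (hPn _)
  set V := omegaOneCenter p P with hV
  have hVP : V ≤ P := (omegaOne_le p _).trans inf_le_left
  have hVn : ∀ X : Subgroup G, X ≤ normalizer (V : Set G) := by
    intro X
    refine (hPn X).trans ?_
    exact (normalizer_le_center P).trans (omegaOne_normalizer p _)
  have hVp : IsPGroup p V := hPp.to_le hVP
  set X := ⁅V, E⁆ with hX
  have hXX : ⁅X, E⁆ = X := comm_comm_of_residual hVp hE1 (hVn E)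
  have hXV : X ≤ V := le_normalizer_iff_commutator_le_left.1 (hVn E)
  have hXE : X ≤ E := (commutator_mono hVP le_rfl).trans (le_normalizer_iff_commutator_le_right.1 hPE)
  have hEX : E ≤ normalizer (X : Set G) := normalizer_commutator_ge_right V E
  have hXQ : X ≤ pCoreOf p E := CfsgLib.LE.le_pCoreOf hXE hEX (hPp.to_le (hXV.trans hVP))
  have hXc : ∀ x ∈ X, ∀ y ∈ X, x * y = y * x := fun x hx y hy =>
    center_comm P x (omegaOne_le p _ (hXV hx)) y (omegaOne_le p _ (hXV hy))
  have hX1 : X ≠ ⊥ := by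
    intro h
    apply hE4
    rw [hX, commutator_eq_bot_iff_le_centralizer] at h
    rw [commutator_comm, commutator_eq_bot_iff_le_centralizer]
    refine le_trans ?_ h
    intro z hz
    rw [omegaCenter_elab] at hz
    have hzP : z ∈ centralizer (P : Set G) := centralizer_le hPT hz.1.2
    rw [hV, omegaCenter_elab]
    exact ⟨⟨hG hzP, hzP⟩, hz.2⟩
  have hWX := key_block hE hXQ hXc hEX hXX hX1
  refine ⟨?_, ?_, ?_⟩
  · apply le_antisymm
    · rw [pResidualOf_eq, closure_le]
      intro x hx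
      exact mem_of_coprime hPp hPE hx.1 hx.2
    · conv_lhs => rw [← hE1]
      rw [pResidualOf_eq, pResidualOf_eq]
      exact closure_mono fun x hx => ⟨mem_sup_left hx.1, hx.2⟩
  · rw [hWX]; exact hXV
  · rw [hWX]
    intro h
    rw [commutator_eq_bot_iff_le_centralizer] at h
    set B := baumannSubgroupOf p (T : Subgroup G) with hB
    have hXB : X ≤ centralizer (B : Set G) := by
      rw [le_centralizer_iff]
      refine (inf_le_right : B ≤ _).trans (centralizer_le ?_)
      intro x hx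
      have hx2 := (omegaCenter_elab p P x).1 (hXV hx)
      have hxJ := mem_thompson_of_comm (hPT hx2.1.1) (h hx) hx2.2
      exact subset_closure ⟨⟨hxJ, h hx⟩, hx2.2⟩
    apply hX1
    rw [← hXX, commutator_eq_bot_iff_le_centralizer, le_centralizer_iff]
    have h1 : E ≤ normalizer ((centralizer (X : Set G) : Subgroup G) : Set G) :=
      hEX.trans (normalizer_le_normalizer_centralizer X)
    calc E = ⁅E, B⁆ := hE2.symm
      _ ≤ ⁅E, centralizer (X : Set G)⁆ := commutator_mono le_rfl (le_centralizer_iff.1 hXB)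
      _ ≤ centralizer (X : Set G) := le_normalizer_iff_commutator_le_right.1 h1

end CfsgLib.FgBlk
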