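import Cfsg.Agent.EqBase
import Cfsg.Agent.LibDihedral
import Cfsg.Agent.LibTransPC
import Cfsg.Agent.LibFgSyl

/-!
# Groups whose p-by-cyclic subgroups are cyclic or dihedral (helper5)
-/
set_option autoImplicit false
set_option linter.all false
open scoped Pointwise
open Cfsg

namespace CfsgLib.FgCD

universe u v

section A
variable {H : Type u} [Group H] [Finite H]

theorem isCyclic_of_central (S : Subgroup H) [S.Normal] (hS : IsCyclic S) (hQ : IsCyclic (H ⧸ S))
    (hc : S ≤ Subgroup.center H) (hcop : (Nat.card S).Coprime S.index) : IsCyclic H := by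
  obtain ⟨s, hs⟩ := hS.exists_generator
  obtain ⟨y', hy'⟩ := hQ.exists_generator
  obtain ⟨y, rfl⟩ := QuotientGroup.mk_surjective y'
  have hos : orderOf (s : H) = Nat.card S := by
    rw [Subgroup.orderOf_coe]
    exact orderOf_eq_card_of_forall_mem_zpowers hs
  have hoy : orderOf (QuotientGroup.mk y : H ⧸ S) = S.index := by
    rw [Subgroup.index_eq_card]
    exact orderOf_eq_card_of_forall_mem_zpowers hy'
  have hz1 : orderOf (y ^ Nat.card S) ∣ S.index := by
    apply orderOf_dvd_of_pow_eq_one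
    rw [← pow_mul, mul_comm, pow_mul]
    have h1 : y ^ S.index ∈ S := Subgroup.pow_index_mem S y
    have h2 : (⟨y ^ S.index, h1⟩ : S) ^ Nat.card S = 1 := pow_card_eq_one'
    exact congrArg Subtype.val h2
  have hz2 : S.index ∣ orderOf (y ^ Nat.card S) := by
    have h1 : orderOf ((QuotientGroup.mk y : H ⧸ S) ^ Nat.card S) = S.index := by
      rw [Nat.Coprime.orderOf_pow (by rw [hoy]; exact hcop.symm), hoy]
    have h2 : orderOf ((QuotientGroup.mk y : H ⧸ S) ^ Nat.card S) ∣ orderOf (y ^ Nat.card S) := by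
      have := orderOf_map_dvd (QuotientGroup.mk' S) (y ^ Nat.card S)
      rwa [map_pow] at this
    rwa [h1] at h2
  have hz : orderOf (y ^ Nat.card S) = S.index := Nat.dvd_antisymm hz1 hz2
  have hcomm : Commute (s : H) (y ^ Nat.card S) := by
    have h1 := Subgroup.mem_center_iff.mp (hc s.2) (y ^ Nat.card S)
    exact h1.symm
  have h3 : orderOf ((s : H) * y ^ Nat.card S) = Nat.card H := by
    rw [hcomm.orderOf_mul_eq_mul_orderOf_of_coprime (by rw [hos, hz]; exact hcop), hos, hz, Subgroup.card_mul_index]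
  exact isCyclic_of_orderOf_eq_card _ h3

theorem isCyclic_of_comm (S : Subgroup H) [S.Normal] (hS : IsCyclic S) (hQ : IsCyclic (H ⧸ S))
    (hc : ∀ a b : H, a * b = b * a) (hcop : (Nat.card S).Coprime S.index) : IsCyclic H :=
  isCyclic_of_central S hS hQ (fun x _ => Subgroup.mem_center_iff.mpr fun y => hc y x) hcop

theorem dihedral_of {p : ℕ} [hp : Fact p.Prime] (S : Sylow p H) [(S : Subgroup H).Normal] (hS : IsCyclic (S : Subgroup H))
    (hQ : IsCyclic (H ⧸ (S : Subgroup H))) (C : Subgroup H) (hSC : (S : Subgroup H) ≤ C) (hC : C ≠ ⊤)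
    (h1 : ∀ x, x ∉ C → x * x = 1) (h2 : ∀ x, x ∉ C → ∀ c ∈ C, x * c * x⁻¹ = c⁻¹) :
    ∃ n : ℕ, Nonempty (H ≃* DihedralGroup (p ^ n)) := by
  obtain ⟨s, hs⟩ := hS.exists_generator
  obtain ⟨y', hy'⟩ := hQ.exists_generator
  obtain ⟨y, rfl⟩ := QuotientGroup.mk_surjective y'
  have hdec : ∀ h : H, ∃ k : ℤ, (y ^ k)⁻¹ * h ∈ (S : Subgroup H) := by
    intro h
    obtain ⟨k, hk⟩ := Subgroup.mem_zpowers_iff.mp (hy' (h : H ⧸ (S : Subgroup H)))
    refine ⟨k, ?_⟩
    rw [← QuotientGroup.eq, QuotientGroup.mk_zpow, hk]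
  have hyC : y ∉ C := by
    intro hy
    apply hC
    rw [eq_top_iff]
    intro h _
    obtain ⟨k, hk⟩ := hdec h
    have h3 := mul_mem (zpow_mem hy k) (hSC hk)
    rwa [mul_inv_cancel_left] at h3
  obtain ⟨n, hn⟩ := IsPGroup.iff_card.mp S.isPGroup'
  have hos : orderOf (s : H) = p ^ n := by
    rw [Subgroup.orderOf_coe, orderOf_eq_card_of_forall_mem_zpowers hs]
    exact hn
  refine ⟨n, CfsgLib.Dihedral.nonempty_equiv_dihedral_top hos (h1 y hyC) (h2 y hyC s (hSC s.2)) ?_ ?_⟩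
  · intro h
    exact hyC (hSC ((Subgroup.zpowers_le.mpr s.2) h))
  · rw [eq_top_iff]
    intro h _
    obtain ⟨k, hk⟩ := hdec h
    have hsS : (S : Subgroup H) ≤ Subgroup.closure ({(s : H), y} : Set H) := by
      intro x hx
      obtain ⟨j, hj⟩ := Subgroup.mem_zpowers_iff.mp (hs ⟨x, hx⟩)
      have h3 : (s : H) ^ j = x := by
        have := congrArg Subtype.val hj
        simpa using this
      rw [← h3]
      exact zpow_mem (Subgroup.subset_closure (by simp)) j
    have h3 := mul_mem (zpow_mem (Subgroup.subset_closure (show y ∈ ({(s : H), y} : Set H) by simp)) k) (hsS hk)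
    rwa [mul_inv_cancel_left] at h3

theorem dihedral_elt {m : ℕ} (e : H ≃* DihedralGroup m) {x y : H} (hy : Odd (orderOf y)) (hxy : x * y ≠ y * x) :
    x * x = 1 ∧ x ≠ 1 ∧ ∀ z : H, Odd (orderOf z) → x * z * x⁻¹ = z⁻¹ := by
  have hrot : ∀ z : H, Odd (orderOf z) → ∃ i, e z = DihedralGroup.r i := by
    intro z hz
    rcases h : e z with i | i
    · exact ⟨i, rfl⟩
    · exfalso
      have h1 : orderOf (e z) = orderOf z := MulEquiv.orderOf_eq e z
      rw [h, DihedralGroup.orderOf_sr] at h1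
      rw [← h1] at hz
      exact absurd hz (by decide)
  obtain ⟨j, hj⟩ := hrot y hy
  rcases h : e x with i | i
  · exfalso
    apply hxy
    apply e.injective
    rw [map_mul, map_mul, h, hj, DihedralGroup.r_mul_r, DihedralGroup.r_mul_r, add_comm]
  · refine ⟨?_, ?_, ?_⟩
    · apply e.injective
      rw [map_mul, h, DihedralGroup.sr_mul_self, map_one]
    · rintro rfl
      apply hxy
      simp
    · intro z hz
      obtain ⟨k, hk⟩ := hrot z hz
      have hinv : (DihedralGroup.sr i)⁻¹ = (DihedralGroup.sr i : DihedralGroup m) := by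
        rw [inv_eq_iff_mul_eq_one, DihedralGroup.sr_mul_self]
      have hinv2 : (DihedralGroup.r k)⁻¹ = (DihedralGroup.r (-k) : DihedralGroup m) := by
        rw [inv_eq_iff_mul_eq_one, DihedralGroup.r_mul_r, add_neg_cancel]; rfl
      apply e.injective
      rw [map_mul, map_mul, map_inv, map_inv, h, hk, hinv, hinv2, DihedralGroup.sr_mul_r, DihedralGroup.sr_mul_sr]
      congr 1
      ring

end A

section B
variable {G : Type u} [Group G] [Finite G] {p : ℕ} [hp : Fact p.Prime]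

/-- `A⟨x⟩` with `A` a p-group normalized by `x` is p-by-cyclic -/
theorem sylow_of_top (A : Subgroup G) [hAn : A.Normal] (hA : IsPGroup p A) (x : G) (htop : ∀ g : G, ∃ k : ℤ, (x ^ k)⁻¹ * g ∈ A)
    (S : Sylow p G) : (S : Subgroup G).Normal ∧ ∀ [(S : Subgroup G).Normal], IsCyclic (G ⧸ (S : Subgroup G)) := by
  have hAS : A ≤ (S : Subgroup G) := by
    obtain ⟨T, hT⟩ := hA.exists_le_sylow
    obtain ⟨g, hg⟩ := MulAction.exists_smul_eq G T S
    intro a ha
    rw [← hg, CfsgLib.FgSyl.mem_smul_iff]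
    apply hT
    have := hAn.conj_mem a ha g⁻¹
    rwa [inv_inv] at this
  have hcyc : ∀ [(S : Subgroup G).Normal], IsCyclic (G ⧸ (S : Subgroup G)) := by
    intro _
    refine ⟨⟨(x : G ⧸ (S : Subgroup G)), fun g' => ?_⟩⟩
    obtain ⟨g, rfl⟩ := QuotientGroup.mk_surjective g'
    obtain ⟨k, hk⟩ := htop g
    refine Subgroup.mem_zpowers_iff.mpr ⟨k, ?_⟩
    rw [← QuotientGroup.mk_zpow, QuotientGroup.eq]
    exact hAS hk
  refine ⟨?_, hcyc⟩
  have hcycA : IsCyclic (G ⧸ A) := by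
    refine ⟨⟨(x : G ⧸ A), fun g' => ?_⟩⟩
    obtain ⟨g, rfl⟩ := QuotientGroup.mk_surjective g'
    obtain ⟨k, hk⟩ := htop g
    refine Subgroup.mem_zpowers_iff.mpr ⟨k, ?_⟩
    rw [← QuotientGroup.mk_zpow, QuotientGroup.eq]
    exact hk
  refine ⟨fun s hs g => ?_⟩
  have h1 : (QuotientGroup.mk (g * s * g⁻¹ * s⁻¹) : G ⧸ A) = 1 := by
    rw [QuotientGroup.mk_mul, QuotientGroup.mk_mul, QuotientGroup.mk_mul, QuotientGroup.mk_inv, QuotientGroup.mk_inv,
      hcycA.isMulCommutative.is_comm.comm (g : G ⧸ A) (s : G ⧸ A), mul_inv_cancel_right, mul_inv_cancel]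
  rw [QuotientGroup.eq_one_iff] at h1
  have h2 := mul_mem (hAS h1) hs
  rwa [inv_mul_cancel_right] at h2

theorem sylow_of_ext {A : Subgroup G} {x : G} (hA : IsPGroup p A) (hx : x ∈ Subgroup.normalizer (A : Set G)) :
    (∀ S : Sylow p (A ⊔ Subgroup.zpowers x : Subgroup G), (S : Subgroup (A ⊔ Subgroup.zpowers x : Subgroup G)).Normal) ∧
    (∀ (S : Sylow p (A ⊔ Subgroup.zpowers x : Subgroup G)) [(S : Subgroup (A ⊔ Subgroup.zpowers x : Subgroup G)).Normal],
      IsCyclic ((A ⊔ Subgroup.zpowers x : Subgroup G) ⧸ (S : Subgroup (A ⊔ Subgroup.zpowers x : Subgroup G)))) := by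
  obtain ⟨H, hH⟩ : ∃ H, H = A ⊔ Subgroup.zpowers x := ⟨_, rfl⟩
  rw [← hH]
  have hAH : A ≤ H := by rw [hH]; exact le_sup_left
  have hxH : x ∈ H := by rw [hH]; exact (le_sup_right : Subgroup.zpowers x ≤ A ⊔ Subgroup.zpowers x) (Subgroup.mem_zpowers x)
  have hHN : H ≤ Subgroup.normalizer (A : Set G) := by
    rw [hH]; exact sup_le Subgroup.le_normalizer (Subgroup.zpowers_le.mpr hx)
  haveI : (A.subgroupOf H).Normal := Subgroup.normal_subgroupOf_iff_le_normalizer hAH |>.mpr hHN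
  have hpA : IsPGroup p (A.subgroupOf H) := hA.comap_subtype
  have key : ∀ g : H, ∃ k : ℤ, ((⟨x, hxH⟩ : H) ^ k)⁻¹ * g ∈ A.subgroupOf H := by
    intro g
    have h1 : (g : G) ∈ ((Subgroup.zpowers x : Set G) * (A : Set G)) := by
      have h2 : (g : G) ∈ A ⊔ Subgroup.zpowers x := by rw [← hH]; exact g.2
      rw [sup_comm] at h2
      rw [← Subgroup.coe_mul_of_left_le_normalizer_right _ _ (Subgroup.zpowers_le.mpr hx)] at *
      exact h2
    obtain ⟨y, hy, a, ha, hya⟩ := h1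
    obtain ⟨k, hk⟩ := Subgroup.mem_zpowers_iff.mp hy
    refine ⟨k, ?_⟩
    rw [Subgroup.mem_subgroupOf]
    have h3 : (((⟨x, hxH⟩ : H) ^ k)⁻¹ * g : H) = (x ^ k)⁻¹ * (g : G) := by simp
    have h4 : (((((⟨x, hxH⟩ : H) ^ k)⁻¹ * g : H)) : G) = a := by
      have h5 : (g : G) = x ^ k * a := by rw [hk]; exact hya.symm
      simp only [Subgroup.coe_mul, Subgroup.coe_inv, SubgroupClass.coe_zpow]
      rw [h5, inv_mul_cancel_left]
    rw [h4]
    exact ha
  exact ⟨fun S => (sylow_of_top (A.subgroupOf H) hpA _ key S).1,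
    fun S _ => (sylow_of_top (A.subgroupOf H) hpA _ key S).2⟩

end B
end CfsgLib.FgCD
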