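import Cfsg.Agent.LibFgCD

/-!
# Groups whose 2-by-cyclic subgroups are cyclic, dihedral or A4 (helper5)
-/
set_option autoImplicit false
set_option linter.all false
open scoped Pointwise
open Cfsg

namespace CfsgLib.FgCD2
open CfsgLib.FgCD

universe u v

section A
variable {H : Type u} [Group H] [Finite H]

/-- `a, b` generate the subgroup `S` as a (possibly degenerate) dihedral group -/
def Dih (S : Subgroup H) (a b : H) : Prop :=
  a ∈ S ∧ b ∈ S ∧ b * b = 1 ∧ b * a * b⁻¹ = a⁻¹ ∧ b ∉ Subgroup.zpowers a ∧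
    ∀ x ∈ S, x ∈ Subgroup.zpowers a ∨ b * x ∈ Subgroup.zpowers a

omit [Finite H] in
theorem inv_zpow {a b : H} (h : b * a * b⁻¹ = a⁻¹) {x : H} (hx : x ∈ Subgroup.zpowers a) : b * x * b⁻¹ = x⁻¹ := by
  obtain ⟨k, rfl⟩ := Subgroup.mem_zpowers_iff.mp hx
  rw [← conj_zpow, h, inv_zpow']
  simp

/-- subgroups of dihedral groups -/
theorem dih_subgroup {D T : Subgroup H} {a b : H} (h : Dih D a b) (hT : T ≤ D) :
    IsCyclic T ∨ ∃ a' b', Dih T a' b' := by
  obtain ⟨ha, hb, hb2, hba, hbn, hall⟩ := h
  by_cases hTa : T ≤ Subgroup.zpowers a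
  · left
    exact isCyclic_of_injective (Subgroup.inclusion hTa) (Subgroup.inclusion_injective hTa)
  · right
    obtain ⟨b', hb'T, hb'⟩ := Set.not_subset.mp hTa
    have hcyc : IsCyclic (T ⊓ Subgroup.zpowers a : Subgroup H) :=
      isCyclic_of_injective (Subgroup.inclusion (inf_le_right : T ⊓ Subgroup.zpowers a ≤ Subgroup.zpowers a))
        (Subgroup.inclusion_injective _)
    obtain ⟨a', ha'⟩ := hcyc.exists_generator
    have hbb' : b * b' ∈ Subgroup.zpowers a := (hall b' (hT hb'T)).resolve_left hb'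
    have hbinv : b⁻¹ = b := by rw [inv_eq_iff_mul_eq_one]; exact hb2
    -- b' inverts ⟨a⟩
    have hinv : ∀ x ∈ Subgroup.zpowers a, b' * x * b'⁻¹ = x⁻¹ := by
      intro x hx
      obtain ⟨i, hi⟩ := Subgroup.mem_zpowers_iff.mp hbb'
      obtain ⟨j, hj⟩ := Subgroup.mem_zpowers_iff.mp hx
      have e : b' = b * a ^ i := by rw [hi, ← mul_assoc, hb2, one_mul]
      have e2 : a ^ i * x * (a ^ i)⁻¹ = x := by
        rw [← hj, ← zpow_add, add_comm, zpow_add, mul_inv_cancel_right]
      have e3 : b' * x * b'⁻¹ = b * (a ^ i * x * (a ^ i)⁻¹) * b⁻¹ := by rw [e]; group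
      rw [e3, e2, inv_zpow hba hx]
    have hb'2 : b' * b' = 1 := by
      have h1 := inv_zpow hba hbb'
      rw [hbinv] at h1
      have h2 : b * (b * b') * b = b' * b := by rw [← mul_assoc, hb2, one_mul]
      rw [h2, eq_inv_iff_mul_eq_one] at h1
      have h3 : b' * b * (b * b') = b' * (b * b) * b' := by group
      rw [h3, hb2, mul_one] at h1
      exact h1
    have hmem : ∀ x, x ∈ T → x ∈ Subgroup.zpowers a → x ∈ Subgroup.zpowers (a' : H) := by
      intro x h1 h2
      obtain ⟨k, hk⟩ := Subgroup.mem_zpowers_iff.mp (ha' ⟨x, Subgroup.mem_inf.mpr ⟨h1, h2⟩⟩)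
      refine Subgroup.mem_zpowers_iff.mpr ⟨k, ?_⟩
      have := congrArg Subtype.val hk
      simpa using this
    have ha'1 := Subgroup.mem_inf.mp a'.2
    refine ⟨a', b', ha'1.1, hb'T, hb'2, hinv _ ha'1.2, ?_, ?_⟩
    · intro h
      exact hb' ((Subgroup.zpowers_le.mpr ha'1.2) h)
    · intro x hx
      by_cases hxa : x ∈ Subgroup.zpowers a
      · exact Or.inl (hmem x hx hxa)
      · right
        apply hmem _ (mul_mem hb'T hx)
        have h1 := (hall x (hT hx)).resolve_left hxa
        have h2 : b' * x = (b * b')⁻¹ * (b * x) := by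
          have : b'⁻¹ = b' := by rw [inv_eq_iff_mul_eq_one]; exact hb'2
          rw [mul_inv_rev, this]; group
        rw [h2]
        exact mul_mem (inv_mem hbb') h1

omit [Finite H] in
theorem dih_of_equiv {n : ℕ} (e : H ≃* DihedralGroup n) (hn : n ≠ 0) : ∃ a b : H, Dih (⊤ : Subgroup H) a b := by
  have hr : ∀ i : ZMod n, (DihedralGroup.r i : DihedralGroup n) ∈ Subgroup.zpowers (DihedralGroup.r 1) := by
    intro i
    haveI : NeZero n := ⟨hn⟩
    refine Subgroup.mem_zpowers_iff.mpr ⟨(i.val : ℤ), ?_⟩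
    rw [zpow_natCast, DihedralGroup.r_one_pow, ZMod.natCast_zmod_val]
  have hmem : ∀ x : H, e x ∈ Subgroup.zpowers (DihedralGroup.r 1 : DihedralGroup n) ↔ x ∈ Subgroup.zpowers (e.symm (DihedralGroup.r 1)) := by
    intro x
    rw [Subgroup.mem_zpowers_iff, Subgroup.mem_zpowers_iff]
    constructor
    · rintro ⟨k, hk⟩
      refine ⟨k, ?_⟩
      rw [← map_zpow, hk, MulEquiv.symm_apply_apply]
    · rintro ⟨k, hk⟩
      refine ⟨k, ?_⟩
      rw [← hk, map_zpow, MulEquiv.apply_symm_apply]
  have hnot : ∀ i : ZMod n, (DihedralGroup.sr i : DihedralGroup n) ∉ Subgroup.zpowers (DihedralGroup.r 1) := by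
    intro i h
    obtain ⟨k, hk⟩ := Subgroup.mem_zpowers_iff.mp h
    rw [DihedralGroup.r_one_zpow] at hk
    cases hk
  refine ⟨e.symm (DihedralGroup.r 1), e.symm (DihedralGroup.sr 0), trivial, trivial, ?_, ?_, ?_, ?_⟩
  · rw [← map_mul, DihedralGroup.sr_mul_self, map_one]
  · apply e.injective
    have hinv : (DihedralGroup.sr 0)⁻¹ = (DihedralGroup.sr 0 : DihedralGroup n) := by
      rw [inv_eq_iff_mul_eq_one, DihedralGroup.sr_mul_self]
    have hinv2 : (DihedralGroup.r 1)⁻¹ = (DihedralGroup.r (-1) : DihedralGroup n) := by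
      rw [inv_eq_iff_mul_eq_one, DihedralGroup.r_mul_r, add_neg_cancel]; rfl
    rw [map_mul, map_mul, map_inv, map_inv, MulEquiv.apply_symm_apply, MulEquiv.apply_symm_apply, hinv, hinv2,
      DihedralGroup.sr_mul_r, DihedralGroup.sr_mul_sr]
    congr 1
    ring
  · rw [← hmem, MulEquiv.apply_symm_apply]
    exact hnot 0
  · intro x _
    rw [← hmem, ← hmem, map_mul, MulEquiv.apply_symm_apply]
    rcases e x with i | i
    · left; exact hr i
    · right
      rw [DihedralGroup.sr_mul_sr]
      exact hr _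

/-- a subgroup of a group isomorphic with a dihedral group, abstractly -/
theorem dih_map {K : Type v} [Group K] [Finite K] (f : H →* K) (hf : Function.Injective f) {S : Subgroup H} {a b : K}
    (h : Dih (S.map f) a b) : ∃ a' b', Dih S a' b' := by
  obtain ⟨⟨a', ha', rfl⟩, ⟨b', hb', rfl⟩, h1, h2, h3, h4⟩ := h
  have hmem : ∀ x : H, f x ∈ Subgroup.zpowers (f a') ↔ x ∈ Subgroup.zpowers a' := by
    intro x
    rw [Subgroup.mem_zpowers_iff, Subgroup.mem_zpowers_iff]
    constructor
    · rintro ⟨k, hk⟩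
      exact ⟨k, hf (by rw [map_zpow, hk])⟩
    · rintro ⟨k, hk⟩
      exact ⟨k, by rw [← map_zpow, hk]⟩
  refine ⟨a', b', ha', hb', hf (by rw [map_mul, h1, map_one]), hf (by rw [map_mul, map_mul, map_inv, map_inv, h2]),
    fun h => h3 ((hmem _).mpr h), fun x hx => ?_⟩
  rcases h4 (f x) ⟨x, hx, rfl⟩ with h | h
  · exact Or.inl ((hmem _).mp h)
  · right
    rw [← map_mul] at h
    exact (hmem _).mp h

/-- an element of odd order generating `H` modulo the Sylow 2-subgroup -/
theorem exists_odd_gen (S : Sylow 2 H) [(S : Subgroup H).Normal] (hQ : IsCyclic (H ⧸ (S : Subgroup H))) :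
    ∃ c : H, Odd (orderOf c) ∧ ∀ h : H, ∃ k : ℤ, (c ^ k)⁻¹ * h ∈ (S : Subgroup H) := by
  obtain ⟨y', hy'⟩ := hQ.exists_generator
  obtain ⟨y, rfl⟩ := QuotientGroup.mk_surjective y'
  have hcop : (Nat.card (S : Subgroup H)).Coprime (S : Subgroup H).index := Sylow.card_coprime_index S
  refine ⟨y ^ Nat.card (S : Subgroup H), ?_, ?_⟩
  · have h1 : orderOf (y ^ Nat.card (S : Subgroup H)) ∣ (S : Subgroup H).index := by
      apply orderOf_dvd_of_pow_eq_one
      rw [← pow_mul, mul_comm, pow_mul]
      have h1 : y ^ (S : Subgroup H).index ∈ (S : Subgroup H) := Subgroup.pow_index_mem _ y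
      have h2 : (⟨y ^ (S : Subgroup H).index, h1⟩ : (S : Subgroup H)) ^ Nat.card (S : Subgroup H) = 1 := pow_card_eq_one'
      exact congrArg Subtype.val h2
    rw [← Nat.not_even_iff_odd, even_iff_two_dvd]
    intro h
    exact S.not_dvd_index (h.trans h1)
  · intro h
    have h1 : orderOf (((y : H ⧸ (S : Subgroup H))) ^ Nat.card (S : Subgroup H)) = Nat.card (H ⧸ (S : Subgroup H)) := by
      rw [Nat.Coprime.orderOf_pow (by
        rw [orderOf_eq_card_of_forall_mem_zpowers hy', ← Subgroup.index_eq_card]; exact hcop.symm),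
        orderOf_eq_card_of_forall_mem_zpowers hy']
    have h2 : Subgroup.zpowers (((y : H ⧸ (S : Subgroup H))) ^ Nat.card (S : Subgroup H)) = ⊤ := by
      apply Subgroup.eq_top_of_card_eq
      rw [Nat.card_zpowers, h1]
    have h3 : (h : H ⧸ (S : Subgroup H)) ∈ Subgroup.zpowers (((y : H ⧸ (S : Subgroup H))) ^ Nat.card (S : Subgroup H)) := by
      rw [h2]; trivial
    obtain ⟨k, hk⟩ := Subgroup.mem_zpowers_iff.mp h3
    refine ⟨k, ?_⟩
    rw [← QuotientGroup.eq, QuotientGroup.mk_zpow, QuotientGroup.mk_pow, hk]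

/-- a group with a cyclic normal Sylow 2-subgroup with cyclic quotient is cyclic -/
theorem isCyclic_two (S : Sylow 2 H) [(S : Subgroup H).Normal] (hS : IsCyclic (S : Subgroup H))
    (hQ : IsCyclic (H ⧸ (S : Subgroup H))) : IsCyclic H := by
  refine isCyclic_of_central (S : Subgroup H) hS hQ ?_ (Sylow.card_coprime_index S)
  by_cases h2 : 2 ∣ Nat.card H
  · have hmin : (Nat.card H).minFac = 2 := by
      rw [Nat.minFac_eq_two_iff]; exact h2
    have h3 := IsCyclic.normalizer_le_centralizer hmin hS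
    intro x hx
    rw [Subgroup.mem_center_iff]
    intro y
    have h4 : y ∈ Subgroup.normalizer ((S : Subgroup H) : Set H) := by
      rw [Subgroup.normalizer_eq_top]; trivial
    exact (Subgroup.mem_centralizer_iff.mp (h3 h4) x hx).symm
  · have h3 : (S : Subgroup H) = ⊥ := by
      apply Subgroup.eq_bot_of_card_eq
      obtain ⟨k, hk⟩ := IsPGroup.iff_card.mp S.isPGroup'
      rcases Nat.eq_zero_or_pos k with h | h
      · have := hk
        rw [h, pow_zero] at this
        exact this
      · exfalso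
        apply h2
        refine dvd_trans ?_ (Subgroup.card_subgroup_dvd_card (S : Subgroup H))
        have e : Nat.card (S : Subgroup H) = 2 ^ k := hk
        rw [e]
        exact dvd_pow_self 2 h.ne'
    rw [h3]
    exact bot_le

theorem eq_top_of_one {S : Subgroup H} {c : H} (hc : ∀ h : H, ∃ k : ℤ, (c ^ k)⁻¹ * h ∈ S) (h1 : c = 1) : S = ⊤ := by
  rw [eq_top_iff]
  intro h _
  obtain ⟨k, hk⟩ := hc h
  rwa [h1, one_zpow, inv_one, one_mul] at hk

theorem closure_eq_top {a b : H} (h : Dih (⊤ : Subgroup H) a b) : Subgroup.closure ({a, b} : Set H) = ⊤ := by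
  obtain ⟨-, -, hb2, -, -, hall⟩ := h
  have hA : Subgroup.zpowers a ≤ Subgroup.closure ({a, b} : Set H) :=
    Subgroup.zpowers_le.mpr (Subgroup.subset_closure (by simp))
  have hB : b ∈ Subgroup.closure ({a, b} : Set H) := Subgroup.subset_closure (by simp)
  rw [eq_top_iff]
  intro x _
  rcases hall x trivial with h | h
  · exact hA h
  · have h1 := mul_mem hB (hA h)
    rwa [← mul_assoc, hb2, one_mul] at h1

theorem odd_two {x : H} (h1 : Odd (orderOf x)) {k : ℕ} (h2 : orderOf x ∣ 2 ^ k) : x = 1 := by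
  rw [← orderOf_eq_one_iff]
  have h3 : (orderOf x).Coprime (2 ^ k) := Nat.Coprime.pow_right k h1.coprime_two_right
  exact Nat.Coprime.eq_one_of_dvd h3 h2

theorem conj_iter {c b w : H} (h : c * b * c⁻¹ = b * w) (hcw : c * w = w * c) (k : ℕ) :
    c ^ k * b * (c ^ k)⁻¹ = b * w ^ k := by
  induction k with
  | zero => simp
  | succ k ih =>
    have hcwk : c * w ^ k = w ^ k * c := (Commute.pow_right (show Commute c w from hcw) k)
    have e : c ^ (k + 1) * b * (c ^ (k + 1))⁻¹ = c * (c ^ k * b * (c ^ k)⁻¹) * c⁻¹ := by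
      rw [pow_succ']; group
    rw [e, ih]
    calc c * (b * w ^ k) * c⁻¹ = (c * b * c⁻¹) * (c * w ^ k * c⁻¹) := by group
      _ = b * w * (w ^ k * c * c⁻¹) := by rw [h, hcwk]
      _ = b * w ^ (k + 1) := by rw [pow_succ']; group

/-- commuting distinct involutions generate a self-centralizing subgroup -/
def SelfCent (H : Type*) [Group H] : Prop := ∀ a b : H, a * a = 1 → b * b = 1 → a * b = b * a → a ≠ 1 → b ≠ 1 → a ≠ b →
  ∀ x, x * a = a * x → x * b = b * x → x = 1 ∨ x = a ∨ x = b ∨ x = a * b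

theorem case_ge_two (hK : SelfCent H) (S : Sylow 2 H) [hSn : (S : Subgroup H).Normal] {a b : H} (h : Dih (S : Subgroup H) a b) {m : ℕ}
    (hm : 2 ≤ m) (ha : orderOf a = 2 ^ m) {c : H} (hc : Odd (orderOf c)) : c = 1 := by
  obtain ⟨haS, hbS, hb2, hba, hbn, hall⟩ := h
  have hbinv : b⁻¹ = b := by rw [inv_eq_iff_mul_eq_one]; exact hb2
  -- elements of S of order > 2 are in ⟨a⟩
  have hout : ∀ x ∈ (S : Subgroup H), x ∉ Subgroup.zpowers a → x * x = 1 := by
    intro x hx hxa
    have h1 := (hall x hx).resolve_left hxa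
    have h2 := inv_zpow hba h1
    have e : b * (b * x) * b⁻¹ = x * b := by rw [hbinv, ← mul_assoc, hb2, one_mul]
    rw [e, eq_inv_iff_mul_eq_one] at h2
    have e2 : x * b * (b * x) = x * (b * b) * x := by group
    rw [e2, hb2, mul_one] at h2
    exact h2
  haveI hN : (Subgroup.zpowers a).Normal := by
    have key : ∀ g : H, g * a * g⁻¹ ∈ Subgroup.zpowers a := by
      intro g
      by_contra hcon
      have h1 := hout _ (hSn.conj_mem a haS g) hcon
      have h2 : orderOf (g * a * g⁻¹) = 2 ^ m := by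
        rw [← ha]
        have := (MulAut.conj g).orderOf_eq a
        exact this
      have h3 : orderOf (g * a * g⁻¹) ∣ 2 := orderOf_dvd_of_pow_eq_one (by rw [pow_two]; exact h1)
      rw [h2] at h3
      have h4 := Nat.le_of_dvd (by norm_num) h3
      have h5 : 2 ^ 2 ≤ 2 ^ m := Nat.pow_le_pow_right (by norm_num) hm
      omega
    refine ⟨fun x hx g => ?_⟩
    obtain ⟨k, rfl⟩ := Subgroup.mem_zpowers_iff.mp hx
    rw [← conj_zpow]
    exact zpow_mem (key g) k
  -- c centralizes a
  have hca : c * a * c⁻¹ = a := by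
    haveI : IsCyclic (Subgroup.zpowers a) := inferInstance
    have h1 : orderOf (MulAut.conjNormal c : MulAut (Subgroup.zpowers a)) ∣ orderOf c := orderOf_map_dvd _ c
    have h2 : orderOf (MulAut.conjNormal c : MulAut (Subgroup.zpowers a)) ∣ 2 ^ (m - 1) := by
      have h3 := orderOf_dvd_natCard (MulAut.conjNormal c : MulAut (Subgroup.zpowers a))
      rw [IsCyclic.card_mulAut, Nat.card_zpowers, ha, Nat.totient_prime_pow Nat.prime_two (by omega)] at h3
      simpa using h3
    have h3 : (MulAut.conjNormal c : MulAut (Subgroup.zpowers a)) = 1 := by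
      rw [← orderOf_eq_one_iff]
      have h4 : (orderOf c).Coprime (2 ^ (m - 1)) := Nat.Coprime.pow_right _ hc.coprime_two_right
      exact Nat.Coprime.eq_one_of_dvd (Nat.Coprime.coprime_dvd_left h1 h4) h2
    have h4 := congrArg (fun f : MulAut (Subgroup.zpowers a) => ((f ⟨a, Subgroup.mem_zpowers a⟩ : Subgroup.zpowers a) : H)) h3
    exact h4
  have hcz : ∀ w ∈ Subgroup.zpowers a, c * w = w * c := by
    intro w hw
    obtain ⟨k, rfl⟩ := Subgroup.mem_zpowers_iff.mp hw
    have h1 : Commute c a := by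
      rw [mul_inv_eq_iff_eq_mul] at hca
      exact hca
    exact h1.zpow_right k
  have hcb : c * b * c⁻¹ = b := by
    have h1 : c * b * c⁻¹ ∉ Subgroup.zpowers a := by
      intro h
      have h2 := hN.conj_mem _ h c⁻¹
      have e : c⁻¹ * (c * b * c⁻¹) * c⁻¹⁻¹ = b := by group
      rw [e] at h2
      exact hbn h2
    have h2 := (hall _ (hSn.conj_mem b hbS c)).resolve_left h1
    obtain ⟨w, hw⟩ : ∃ w, w = b * (c * b * c⁻¹) := ⟨_, rfl⟩
    rw [← hw] at h2
    have h3 : c * b * c⁻¹ = b * w := by rw [hw, ← mul_assoc, hb2, one_mul]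
    have h4 := conj_iter h3 (hcz w h2) (orderOf c)
    rw [pow_orderOf_eq_one, inv_one, one_mul, mul_one] at h4
    have h5 : w ^ orderOf c = 1 := by
      have : b * 1 = b * w ^ orderOf c := by rw [mul_one]; exact h4
      exact (mul_left_cancel this).symm
    have h6 : Odd (orderOf w) := by
      have h7 : orderOf w ∣ orderOf c := orderOf_dvd_of_pow_eq_one h5
      exact hc.of_dvd_nat h7
    have h7 : w = 1 := by
      apply odd_two h6 (k := m)
      rw [← ha]
      exact orderOf_dvd_of_mem_zpowers h2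
    rw [h3, h7, mul_one]
  -- the involution z
  have hz2 : a ^ (2 ^ (m - 1)) * a ^ (2 ^ (m - 1)) = 1 := by
    rw [← pow_add, ← two_mul, ← pow_succ', Nat.sub_add_cancel (by omega), ← ha, pow_orderOf_eq_one]
  have hz1 : a ^ (2 ^ (m - 1)) ≠ 1 := by
    intro h
    have h1 := orderOf_dvd_of_pow_eq_one h
    rw [ha] at h1
    have h2 := Nat.le_of_dvd (pow_pos (by norm_num) _) h1
    have h3 : 2 ^ (m - 1) < 2 ^ m := Nat.pow_lt_pow_right (by norm_num) (by omega)
    omega
  have hzm : a ^ (2 ^ (m - 1)) ∈ Subgroup.zpowers a := pow_mem (Subgroup.mem_zpowers a) _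
  have hzb : a ^ (2 ^ (m - 1)) * b = b * a ^ (2 ^ (m - 1)) := by
    have h1 := inv_zpow hba hzm
    rw [mul_inv_eq_iff_eq_mul] at h1
    rw [h1]
    congr 1
    symm
    rw [inv_eq_iff_mul_eq_one]; exact hz2
  have hb1 : b ≠ 1 := by
    rintro rfl
    exact hbn (one_mem _)
  have hbz : a ^ (2 ^ (m - 1)) ≠ b := by
    intro h
    apply hbn
    rw [← h]; exact hzm
  have hcS : c ∈ (S : Subgroup H) := by
    have hcb' : c * b = b * c := by rwa [mul_inv_eq_iff_eq_mul] at hcb
    rcases hK _ b hz2 hb2 hzb hz1 hb1 hbz c (hcz _ hzm) hcb' with h | h | h | h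
    · rw [h]; exact one_mem _
    · rw [h]; exact pow_mem haS _
    · rw [h]; exact hbS
    · rw [h]; exact mul_mem (pow_mem haS _) hbS
  obtain ⟨k, hk⟩ := IsPGroup.iff_orderOf.mp S.isPGroup' ⟨c, hcS⟩
  rw [Subgroup.orderOf_mk] at hk
  exact odd_two hc (k := k) (by rw [hk])

/-- recognition of `A₄` -/
theorem a4_of_card (hcard : Nat.card H = 12) (D : Subgroup H) (hD : Nat.card D = 3) (hDn : ¬ D.Normal) :
    Nonempty (H ≃* alternatingGroup (Fin 4)) := by
  have hidx : Nat.card (H ⧸ D) = 4 := by
    have := Subgroup.card_mul_index D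
    rw [hcard, hD] at this
    rw [← Subgroup.index_eq_card]; omega
  have hcore : D.normalCore = ⊥ := by
    have h1 : Nat.card D.normalCore ∣ 3 := by
      rw [← hD]; exact Subgroup.card_dvd_of_le (Subgroup.normalCore_le D)
    rcases (Nat.dvd_prime Nat.prime_three).mp h1 with h2 | h2
    · exact Subgroup.eq_bot_of_card_eq _ h2
    · exfalso
      apply hDn
      have h3 : D.normalCore = D := Subgroup.eq_of_le_of_card_ge (Subgroup.normalCore_le D) (by rw [h2, hD])
      rw [← h3]; infer_instance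
  have hinj : Function.Injective (MulAction.toPermHom H (H ⧸ D)) := by
    rw [← MonoidHom.ker_eq_bot_iff, ← Subgroup.normalCore_eq_ker, hcore]
  haveI : Finite (H ⧸ D) := inferInstance
  let e : (H ⧸ D) ≃ Fin 4 := (Finite.equivFin _).trans (finCongr hidx)
  let f : H →* Equiv.Perm (Fin 4) := (Equiv.permCongrHom e).toMonoidHom.comp (MulAction.toPermHom H (H ⧸ D))
  have hf : Function.Injective f := (Equiv.permCongrHom e).injective.comp hinj
  have hrange : f.range = alternatingGroup (Fin 4) := by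
    apply Equiv.Perm.eq_alternatingGroup_of_index_eq_two
    have h1 : Nat.card f.range = 12 := by
      rw [← hcard]
      exact (Nat.card_congr (MonoidHom.ofInjective hf).toEquiv).symm
    have h2 := Subgroup.card_mul_index f.range
    rw [h1, Nat.card_perm, Nat.card_eq_fintype_card, Fintype.card_fin] at h2
    have h3 : Nat.factorial 4 = 24 := by decide
    rw [h3] at h2
    omega
  exact ⟨(MonoidHom.ofInjective hf).trans (MulEquiv.subgroupCongr hrange)⟩

theorem case_one (hK : SelfCent H) (S : Sylow 2 H) [hSn : (S : Subgroup H).Normal] {a b : H} (h : Dih (S : Subgroup H) a b)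
    (ha : orderOf a = 2) {c : H} (hc : Odd (orderOf c)) (hcg : ∀ h : H, ∃ k : ℤ, (c ^ k)⁻¹ * h ∈ (S : Subgroup H)) (hc1 : c ≠ 1) :
    Nonempty (H ≃* alternatingGroup (Fin 4)) := by
  classical
  have h' := h
  obtain ⟨haS, hbS, hb2, hba, hbn, hall⟩ := h
  have ha2 : a * a = 1 := by
    have := pow_orderOf_eq_one a
    rwa [ha, pow_two] at this
  have hainv : a⁻¹ = a := by rw [inv_eq_iff_mul_eq_one]; exact ha2
  have hab : a * b = b * a := by
    rw [mul_inv_eq_iff_eq_mul, hainv] at hba
    exact hba.symm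
  have ha1 : a ≠ 1 := by
    rintro rfl
    rw [orderOf_one] at ha
    exact absurd ha (by norm_num)
  have hb1 : b ≠ 1 := by
    rintro rfl
    exact hbn (one_mem _)
  have hane : a ≠ b := by
    rintro rfl
    exact hbn (Subgroup.mem_zpowers _)
  have hza : ∀ x, x ∈ Subgroup.zpowers a → x = 1 ∨ x = a := by
    intro x hx
    obtain ⟨k, hk⟩ := Subgroup.mem_zpowers_iff.mp hx
    rcases Int.even_or_odd' k with ⟨j, hj | hj⟩
    · left
      rw [← hk, hj, zpow_mul]
      have : a ^ (2 : ℤ) = 1 := by rw [zpow_two]; exact ha2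
      rw [this, one_zpow]
    · right
      rw [← hk, hj, zpow_add, zpow_mul]
      have : a ^ (2 : ℤ) = 1 := by rw [zpow_two]; exact ha2
      rw [this, one_zpow, one_mul, zpow_one]
  have hSel : ∀ x ∈ (S : Subgroup H), x = 1 ∨ x = a ∨ x = b ∨ x = a * b := by
    intro x hx
    rcases hall x hx with h | h
    · rcases hza x h with h | h
      · exact Or.inl h
      · exact Or.inr (Or.inl h)
    · have e : x = b * (b * x) := by rw [← mul_assoc, hb2, one_mul]
      rcases hza _ h with h | h
      · rw [h, mul_one] at e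
        exact Or.inr (Or.inr (Or.inl e))
      · rw [h] at e
        exact Or.inr (Or.inr (Or.inr (by rw [e, hab])))
  have hcardS : Nat.card (S : Subgroup H) = 4 := by
    have habne : a * b ≠ 1 := by
      intro h
      apply hane
      rw [mul_eq_one_iff_eq_inv] at h
      rw [h, inv_eq_iff_mul_eq_one]; exact hb2
    have h1 : ((S : Subgroup H) : Set H) = ({1, a, b, a * b} : Finset H) := by
      ext x
      simp only [Finset.coe_insert, Finset.coe_singleton, Set.mem_insert_iff, Set.mem_singleton_iff]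
      constructor
      · exact hSel x
      · rintro (rfl | rfl | rfl | rfl)
        · exact one_mem _
        · exact haS
        · exact hbS
        · exact mul_mem haS hbS
    have h2 : Nat.card (S : Subgroup H) = (({1, a, b, a * b} : Finset H)).card := by
      change Nat.card ((S : Subgroup H) : Set H) = _
      rw [h1]
      simp
    rw [h2, Finset.card_insert_of_notMem, Finset.card_insert_of_notMem, Finset.card_insert_of_notMem, Finset.card_singleton]
    · rw [Finset.mem_singleton]
      intro h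
      apply ha1
      have : 1 * b = a * b := by rw [one_mul]; exact h
      exact (mul_right_cancel this).symm
    · rw [Finset.mem_insert, Finset.mem_singleton]
      rintro (h | h)
      · exact hane h
      · apply hb1
        have : a * 1 = a * b := by rw [mul_one]; exact h
        exact (mul_left_cancel this).symm
    · rw [Finset.mem_insert, Finset.mem_insert, Finset.mem_singleton]
      rintro (h | h | h)
      · exact ha1 h.symm
      · exact hb1 h.symm
      · exact habne h.symm
  -- c³ centralizes S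
  have hfac : orderOf c ∣ 3 := by
    have h1 : ((MulAut.toPerm (S : Subgroup H)) (MulAut.conjNormal c)) ^ 3 = 1 := by
      rw [← orderOf_dvd_iff_pow_eq_one]
      have h2 : orderOf ((MulAut.toPerm (S : Subgroup H)) (MulAut.conjNormal c)) ∣ orderOf c :=
        (orderOf_map_dvd (MulAut.toPerm (S : Subgroup H)) (MulAut.conjNormal c)).trans (orderOf_map_dvd _ c)
      have h3 : orderOf ((MulAut.toPerm (S : Subgroup H)) (MulAut.conjNormal c)) ∣ 24 := by
        have h4 := orderOf_dvd_natCard ((MulAut.toPerm (S : Subgroup H)) (MulAut.conjNormal c))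
        rw [Nat.card_perm, hcardS] at h4
        exact h4
      have h5 : (orderOf ((MulAut.toPerm (S : Subgroup H)) (MulAut.conjNormal c))).Coprime 8 := by
        have : Odd (orderOf ((MulAut.toPerm (S : Subgroup H)) (MulAut.conjNormal c))) := hc.of_dvd_nat h2
        exact Nat.Coprime.pow_right 3 this.coprime_two_right
      exact h5.dvd_of_dvd_mul_left (by simpa using h3)
    have h2 : ∀ s ∈ (S : Subgroup H), c ^ 3 * s * (c ^ 3)⁻¹ = s := by
      intro s hs
      rw [← map_pow, ← map_pow] at h1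
      have h3 := congrArg (fun f : Equiv.Perm (S : Subgroup H) => ((f ⟨s, hs⟩ : (S : Subgroup H)) : H)) h1
      exact h3
    have h3 : c ^ 3 ∈ (S : Subgroup H) := by
      rcases hK a b ha2 hb2 hab ha1 hb1 hane (c ^ 3) (by rw [← mul_inv_eq_iff_eq_mul]; exact h2 a haS)
        (by rw [← mul_inv_eq_iff_eq_mul]; exact h2 b hbS) with h | h | h | h
      · rw [h]; exact one_mem _
      · rw [h]; exact haS
      · rw [h]; exact hbS
      · rw [h]; exact mul_mem haS hbS
    rw [orderOf_dvd_iff_pow_eq_one]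
    obtain ⟨k, hk⟩ := IsPGroup.iff_orderOf.mp S.isPGroup' ⟨c ^ 3, h3⟩
    rw [Subgroup.orderOf_mk] at hk
    exact odd_two (hc.of_dvd_nat (orderOf_pow_dvd 3)) (k := k) (by rw [hk])
  have hoc : orderOf c = 3 := by
    rcases (Nat.dvd_prime Nat.prime_three).mp hfac with h | h
    · exact absurd (orderOf_eq_one_iff.mp h) hc1
    · exact h
  have hcS : c ∉ (S : Subgroup H) := by
    intro hcS
    obtain ⟨k, hk⟩ := IsPGroup.iff_orderOf.mp S.isPGroup' ⟨c, hcS⟩
    rw [Subgroup.orderOf_mk] at hk
    exact hc1 (odd_two hc (k := k) (by rw [hk]))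
  have hidx : (S : Subgroup H).index = 3 := by
    have h1 : orderOf (c : H ⧸ (S : Subgroup H)) = (S : Subgroup H).index := by
      rw [Subgroup.index_eq_card]
      apply orderOf_eq_card_of_forall_mem_zpowers
      intro x
      obtain ⟨h, rfl⟩ := QuotientGroup.mk_surjective x
      obtain ⟨k, hk⟩ := hcg h
      refine Subgroup.mem_zpowers_iff.mpr ⟨k, ?_⟩
      rw [← QuotientGroup.mk_zpow, QuotientGroup.eq]
      exact hk
    have h2 : orderOf (c : H ⧸ (S : Subgroup H)) ∣ 3 := by
      rw [← hoc]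
      exact orderOf_map_dvd (QuotientGroup.mk' (S : Subgroup H)) c
    rw [h1] at h2
    rcases (Nat.dvd_prime Nat.prime_three).mp h2 with h | h
    · exfalso
      rw [Subgroup.index_eq_one] at h
      apply hcS
      rw [h]; trivial
    · exact h
  have hcard : Nat.card H = 12 := by
    rw [← Subgroup.card_mul_index (S : Subgroup H), hidx, hcardS]
  refine a4_of_card hcard (Subgroup.zpowers c) (by rw [Nat.card_zpowers, hoc]) ?_
  intro hn
  have hdisj : ∀ x, x ∈ Subgroup.zpowers c → x ∈ (S : Subgroup H) → x = 1 := by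
    intro x hx hxS
    have h1 : Odd (orderOf x) := hc.of_dvd_nat (orderOf_dvd_of_mem_zpowers hx)
    obtain ⟨k, hk⟩ := IsPGroup.iff_orderOf.mp S.isPGroup' ⟨x, hxS⟩
    rw [Subgroup.orderOf_mk] at hk
    exact odd_two h1 (k := k) (by rw [hk])
  have hcomm : ∀ s ∈ (S : Subgroup H), c * s = s * c := by
    intro s hs
    have h1 : c * s * c⁻¹ * s⁻¹ = 1 := by
      apply hdisj
      · have h2 := hn.conj_mem c⁻¹ (inv_mem (Subgroup.mem_zpowers c)) s
        have h3 := mul_mem (Subgroup.mem_zpowers c) h2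
        convert h3 using 1
        group
      · exact mul_mem (hSn.conj_mem s hs c) (inv_mem hs)
    rw [mul_inv_eq_one, mul_inv_eq_iff_eq_mul] at h1
    exact h1
  apply hcS
  rcases hK a b ha2 hb2 hab ha1 hb1 hane c (hcomm a haS) (hcomm b hbS) with h | h | h | h
  · rw [h]; exact one_mem _
  · rw [h]; exact haS
  · rw [h]; exact hbS
  · rw [h]; exact mul_mem haS hbS

theorem main2 (hK : SelfCent H) (S : Sylow 2 H) [hSn : (S : Subgroup H).Normal] (hQ : IsCyclic (H ⧸ (S : Subgroup H)))
    (hS : IsCyclic (S : Subgroup H) ∨ ∃ a b, Dih (S : Subgroup H) a b) :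
    IsCyclic H ∨ (∃ n : ℕ, Nonempty (H ≃* DihedralGroup (2 ^ n))) ∨ Nonempty (H ≃* alternatingGroup (Fin 4)) := by
  rcases hS with hS | ⟨a, b, hab⟩
  · exact Or.inl (isCyclic_two S hS hQ)
  obtain ⟨c, hc, hcg⟩ := exists_odd_gen S hQ
  obtain ⟨k, hk⟩ := IsPGroup.iff_orderOf.mp S.isPGroup' ⟨a, hab.1⟩
  rw [Subgroup.orderOf_mk] at hk
  by_cases hc1 : c = 1
  · have hST := eq_top_of_one hcg hc1
    right; left
    refine ⟨k, ?_⟩
    rw [hST] at hab
    exact CfsgLib.Dihedral.nonempty_equiv_dihedral_top hk hab.2.2.1 hab.2.2.2.1 hab.2.2.2.2.1 (closure_eq_top hab)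
  · rcases Nat.lt_or_ge k 2 with h | h
    · rcases Nat.eq_zero_or_pos k with h0 | h0
      · -- a = 1, S = {1, b} cyclic
        left
        apply isCyclic_two S _ hQ
        have ha1 : a = 1 := by rw [← orderOf_eq_one_iff, hk, h0, pow_zero]
        refine ⟨⟨⟨b, hab.2.1⟩, fun x => ?_⟩⟩
        rw [ha1] at hab
        rcases hab.2.2.2.2.2 x x.2 with h1 | h1
        · rw [Subgroup.zpowers_one_eq_bot, Subgroup.mem_bot] at h1
          have : x = 1 := Subtype.ext h1
          refine ⟨0, ?_⟩
          rw [this]; exact zpow_zero _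
        · rw [Subgroup.zpowers_one_eq_bot, Subgroup.mem_bot] at h1
          refine Subgroup.mem_zpowers_iff.mpr ⟨1, Subtype.ext ?_⟩
          rw [zpow_one]
          have h2 : b * b = b * (x : H) := by rw [hab.2.2.1, h1]
          exact mul_left_cancel h2
      · right; right
        have hk1 : k = 1 := by omega
        rw [hk1, pow_one] at hk
        exact case_one hK S hab hk hc hcg hc1
    · exact absurd (case_ge_two hK S hab h hk hc) hc1

end A

section B
variable {G : Type u} [Group G] [Finite G]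

theorem cyclic_p {p : ℕ} [hpf : Fact p.Prime] (P : Sylow p G) (hP : IsCyclic P)
    {S : Subgroup G} (hS : IsPGroup p S) : IsCyclic S := by
  obtain ⟨T, hT⟩ := hS.exists_le_sylow
  have e : P ≃* T := Sylow.equiv P T
  haveI : IsCyclic T := isCyclic_of_surjective e e.surjective
  exact isCyclic_of_injective (Subgroup.inclusion hT) (Subgroup.inclusion_injective hT)

theorem dih_push {S : Subgroup G} {a b : S} (h : Dih (⊤ : Subgroup S) a b) : Dih S (a : G) (b : G) := by
  obtain ⟨-, -, h1, h2, h3, h4⟩ := h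
  have hmem : ∀ x : S, (x : G) ∈ Subgroup.zpowers (a : G) ↔ x ∈ Subgroup.zpowers a := by
    intro x
    rw [Subgroup.mem_zpowers_iff, Subgroup.mem_zpowers_iff]
    constructor
    · rintro ⟨k, hk⟩
      exact ⟨k, Subtype.ext (by rw [SubgroupClass.coe_zpow]; exact hk)⟩
    · rintro ⟨k, hk⟩
      exact ⟨k, by rw [← hk, SubgroupClass.coe_zpow]⟩
  refine ⟨a.2, b.2, congrArg Subtype.val h1, congrArg Subtype.val h2, fun h => h3 ((hmem b).mp h), fun x hx => ?_⟩
  rcases h4 ⟨x, hx⟩ trivial with h | h
  · exact Or.inl ((hmem ⟨x, hx⟩).mpr h)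
  · exact Or.inr ((hmem (b * ⟨x, hx⟩)).mpr h)

theorem cyc_or_dih {n : ℕ} (hn : n ≠ 0) (P : Sylow 2 G) (e : (P : Subgroup G) ≃* DihedralGroup n) {S : Subgroup G}
    (hS : IsPGroup 2 S) : IsCyclic S ∨ ∃ a b, Dih S a b := by
  obtain ⟨T, hT⟩ := hS.exists_le_sylow
  have e' : (T : Subgroup G) ≃* DihedralGroup n := (Sylow.equiv T P).trans e
  obtain ⟨a, b, hab⟩ := dih_of_equiv e' hn
  obtain ⟨j, hj⟩ : ∃ j : S →* (T : Subgroup G), j = Subgroup.inclusion hT := ⟨_, rfl⟩
  have hji : Function.Injective j := by rw [hj]; exact Subgroup.inclusion_injective hT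
  rcases dih_subgroup hab (le_top : (⊤ : Subgroup S).map j ≤ ⊤) with h | ⟨a', b', h⟩
  · left
    have e1 := (⊤ : Subgroup S).equivMapOfInjective j hji
    haveI : IsCyclic (⊤ : Subgroup S) := isCyclic_of_injective e1.toMonoidHom e1.injective
    exact isCyclic_of_injective (Subgroup.topEquiv (G := S)).symm.toMonoidHom (Subgroup.topEquiv (G := S)).symm.injective
  · right
    obtain ⟨a'', b'', h'⟩ := dih_map j hji h
    exact ⟨_, _, dih_push h'⟩

theorem selfCent_subgroup (h : SelfCent G) (H : Subgroup G) : SelfCent H := by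
  intro a b ha hb hab ha1 hb1 hne x hxa hxb
  rcases h a b (congrArg Subtype.val ha) (congrArg Subtype.val hb) (congrArg Subtype.val hab)
    (fun h => ha1 (Subtype.ext h)) (fun h => hb1 (Subtype.ext h)) (fun h => hne (Subtype.ext h)) x
    (congrArg Subtype.val hxa) (congrArg Subtype.val hxb) with h | h | h | h
  · exact Or.inl (Subtype.ext h)
  · exact Or.inr (Or.inl (Subtype.ext h))
  · exact Or.inr (Or.inr (Or.inl (Subtype.ext h)))
  · exact Or.inr (Or.inr (Or.inr (Subtype.ext h)))

omit [Finite G] in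
/-- the four-group generated by two commuting involutions -/
theorem exists_four {a b : G} (ha : a * a = 1) (hb : b * b = 1) (hab : a * b = b * a) (ha1 : a ≠ 1) (hb1 : b ≠ 1)
    (hne : a ≠ b) : ∃ K : Subgroup G, Nat.card K = 4 ∧ (∀ x, x ∈ K ↔ x = 1 ∨ x = a ∨ x = b ∨ x = a * b) := by
  classical
  have hainv : a⁻¹ = a := by rw [inv_eq_iff_mul_eq_one]; exact ha
  have hbinv : b⁻¹ = b := by rw [inv_eq_iff_mul_eq_one]; exact hb
  have e1 : a * (a * b) = b := by rw [← mul_assoc, ha, one_mul]
  have e2 : b * (a * b) = a := by rw [hab, ← mul_assoc, hb, one_mul]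
  have e3 : a * b * a = b := by rw [hab, mul_assoc, ha, mul_one]
  have e4 : a * b * b = a := by rw [mul_assoc, hb, mul_one]
  have e5 : a * b * (a * b) = 1 := by rw [← mul_assoc, e3, hb]
  let K : Subgroup G :=
    { carrier := {x | x = 1 ∨ x = a ∨ x = b ∨ x = a * b}
      one_mem' := Or.inl rfl
      mul_mem' := by
        rintro x y (rfl | rfl | rfl | rfl) (rfl | rfl | rfl | rfl)
        · simp
        · simp
        · simp
        · simp
        · simp
        · simp [ha]
        · simp
        · simp [e1]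
        · simp
        · simp [hab]
        · simp [hb]
        · simp [e2]
        · simp
        · simp [e3]
        · simp [e4]
        · simp [e5]
      inv_mem' := by
        rintro x (rfl | rfl | rfl | rfl)
        · simp
        · simp [hainv]
        · simp [hbinv]
        · simp [hainv, hbinv, hab] }
  have habne : a * b ≠ 1 := by
    intro h
    apply hne
    rw [mul_eq_one_iff_eq_inv] at h
    rw [h, hbinv]
  refine ⟨K, ?_, fun x => Iff.rfl⟩
  have h1 : (K : Set G) = ({1, a, b, a * b} : Finset G) := by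
    ext x
    simp only [Finset.coe_insert, Finset.coe_singleton, Set.mem_insert_iff, Set.mem_singleton_iff]
    exact Iff.rfl
  have h2 : Nat.card K = (({1, a, b, a * b} : Finset G)).card := by
    change Nat.card (K : Set G) = _
    rw [h1]
    simp
  rw [h2, Finset.card_insert_of_notMem, Finset.card_insert_of_notMem, Finset.card_insert_of_notMem, Finset.card_singleton]
  · rw [Finset.mem_singleton]
    intro h
    apply ha1
    have : 1 * b = a * b := by rw [one_mul]; exact h
    exact (mul_right_cancel this).symm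
  · rw [Finset.mem_insert, Finset.mem_singleton]
    rintro (h | h)
    · exact hne h
    · apply hb1
      have : a * 1 = a * b := by rw [mul_one]; exact h
      exact (mul_left_cancel this).symm
  · rw [Finset.mem_insert, Finset.mem_insert, Finset.mem_singleton]
    rintro (h | h | h)
    · exact ha1 h.symm
    · exact hb1 h.symm
    · exact habne h.symm

theorem selfCent_of (P : Sylow 2 G) (h : ∀ K : Subgroup G, K ≤ P → Nat.card K = 4 → (∀ k ∈ K, k ^ 2 = 1) →
    Subgroup.centralizer (K : Set G) = K) : SelfCent G := by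
  intro a b ha hb hab ha1 hb1 hne x hxa hxb
  obtain ⟨K, hK, hKm⟩ := exists_four ha hb hab ha1 hb1 hne
  have hKp : IsPGroup 2 K := IsPGroup.of_card (n := 2) (by rw [hK]; norm_num)
  obtain ⟨T, hT⟩ := hKp.exists_le_sylow
  obtain ⟨g, hg⟩ := MulAction.exists_smul_eq G T P
  have e3 : a * b * a = b := by rw [hab, mul_assoc, ha, mul_one]
  have h2 : ∀ k ∈ K, k * k = 1 := by
    intro k hk
    rcases (hKm k).mp hk with rfl | rfl | rfl | rfl
    · simp
    · exact ha
    · exact hb
    · rw [← mul_assoc, e3, hb]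
  have hK' : K.map (MulAut.conj g).toMonoidHom ≤ P := by
    rintro _ ⟨y, hy, rfl⟩
    rw [← hg, CfsgLib.FgSyl.mem_smul_iff]
    have : g⁻¹ * (g * y * g⁻¹) * g = y := by group
    change g⁻¹ * (g * y * g⁻¹) * g ∈ _
    rw [this]
    exact hT hy
  have h3 := h _ hK' (by rw [Subgroup.card_map_of_injective (MulAut.conj g).injective, hK]) (by
    rintro _ ⟨k, hk, rfl⟩
    rw [← map_pow, pow_two, h2 k hk, map_one])
  have h4 : g * x * g⁻¹ ∈ Subgroup.centralizer ((K.map (MulAut.conj g).toMonoidHom : Subgroup G) : Set G) := by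
    rw [Subgroup.mem_centralizer_iff]
    rintro _ ⟨k, hk, rfl⟩
    change (g * k * g⁻¹) * (g * x * g⁻¹) = (g * x * g⁻¹) * (g * k * g⁻¹)
    have h5 : k * x = x * k := by
      rcases (hKm k).mp hk with rfl | rfl | rfl | rfl
      · simp
      · exact hxa.symm
      · exact hxb.symm
      · calc a * b * x = a * (x * b) := by rw [hxb]; group
          _ = (a * x) * b := by group
          _ = (x * a) * b := by rw [hxa]
          _ = _ := by group
    calc (g * k * g⁻¹) * (g * x * g⁻¹) = g * (k * x) * g⁻¹ := by group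
      _ = g * (x * k) * g⁻¹ := by rw [h5]
      _ = _ := by group
  rw [h3] at h4
  obtain ⟨y, hy, hyx⟩ := h4
  have h5 : g * y * g⁻¹ = g * x * g⁻¹ := hyx
  have h6 : y = x := mul_left_cancel (mul_right_cancel h5)
  rw [← h6]
  exact (hKm y).mp hy

end B
end CfsgLib.FgCD2
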