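import Cfsg.Agent.EqBase
import Cfsg.Agent.LibFrob6
import Cfsg.Prelude.Def_Transfer
import Cfsg.Agent.LibFgTwoSz

/-!
# Groups in which centralizers of noncentral elements are maximal (helper5)
-/
set_option autoImplicit false
set_option linter.all false
open scoped Pointwise
open Cfsg

namespace CfsgLib.FgCM

universe u v

section A
variable {G : Type u} [Group G]

/-- the centralizer of an element -/
abbrev C (x : G) : Subgroup G := Subgroup.centralizer ({x} : Set G)

theorem mem_C {x y : G} : y ∈ C x ↔ y * x = x * y := Subgroup.mem_centralizer_singleton_iff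

theorem self_mem (x : G) : x ∈ C x := mem_C.mpr rfl

theorem comm_mem {x y : G} : y ∈ C x ↔ x ∈ C y := by
  rw [mem_C, mem_C]; exact eq_comm

theorem C_eq_top {x : G} (h : C x = ⊤) : x ∈ Subgroup.center G := by
  rw [Subgroup.mem_center_iff]
  intro g
  have : g ∈ C x := by rw [h]; trivial
  exact mem_C.mp this

theorem center_le (x : G) : Subgroup.center G ≤ C x := by
  intro z hz
  rw [mem_C]
  exact (Subgroup.mem_center_iff.mp hz x).symm

theorem C_le_pow (x : G) (n : ℕ) : C x ≤ C (x ^ n) := by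
  intro g hg
  rw [mem_C] at hg ⊢
  exact (Commute.pow_right hg n)

theorem C_conj (g x : G) {y : G} : y ∈ C (g * x * g⁻¹) ↔ g⁻¹ * y * g ∈ C x := by
  rw [mem_C, mem_C]
  constructor
  · intro h
    calc g⁻¹ * y * g * x = g⁻¹ * (y * (g * x * g⁻¹)) * g := by group
      _ = g⁻¹ * (g * x * g⁻¹ * y) * g := by rw [h]
      _ = _ := by group
  · intro h
    calc y * (g * x * g⁻¹) = g * (g⁻¹ * y * g * x) * g⁻¹ := by group
      _ = g * (x * (g⁻¹ * y * g)) * g⁻¹ := by rw [h]
      _ = _ := by group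

/-- centralizers of noncentral elements are maximal -/
def CM (G : Type u) [Group G] : Prop := ∀ x : G, x ∉ Subgroup.center G → IsCoatom (C x)

variable (h : CM G)

include h

theorem C_eq {x y : G} (hx : x ∉ Subgroup.center G) (hy : y ∉ Subgroup.center G) (hle : C x ≤ C y) : C x = C y := by
  rcases (h x hx).le_iff.mp hle with h1 | h1
  · exact absurd (C_eq_top h1) hy
  · exact h1.symm

theorem C_pow {x : G} {n : ℕ} (hx : x ^ n ∉ Subgroup.center G) : C (x ^ n) = C x := by
  have hx' : x ∉ Subgroup.center G := fun h => hx (pow_mem h n)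
  exact (C_eq h hx' hx (C_le_pow x n)).symm

/-- if `x` is centralized by `C y` then the centralizers agree -/
theorem claim {x y : G} (hx : x ∉ Subgroup.center G) (hy : y ∉ Subgroup.center G) (hxy : x ∈ C y) (hne : C x ≠ C y)
    {n : ℕ} (hn : x ^ n ∈ Subgroup.center G) : y ^ n ∈ Subgroup.center G := by
  by_contra hcon
  have hcomm : Commute x y := mem_C.mp hxy
  have h1 : (x * y) ^ n = x ^ n * y ^ n := hcomm.mul_pow n
  have h2 : C (x ^ n * y ^ n) = C (y ^ n) := by
    ext g
    rw [mem_C, mem_C]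
    have hz := Subgroup.mem_center_iff.mp hn
    constructor
    · intro h3
      have h4 : x ^ n * (g * y ^ n) = x ^ n * (y ^ n * g) := by
        calc x ^ n * (g * y ^ n) = (x ^ n * g) * y ^ n := by group
          _ = (g * x ^ n) * y ^ n := by rw [hz g]
          _ = g * (x ^ n * y ^ n) := by group
          _ = x ^ n * y ^ n * g := h3
          _ = _ := by group
      exact mul_left_cancel h4
    · intro h3
      calc g * (x ^ n * y ^ n) = (g * x ^ n) * y ^ n := by group
        _ = (x ^ n * g) * y ^ n := by rw [hz g]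
        _ = x ^ n * (g * y ^ n) := by group
        _ = x ^ n * (y ^ n * g) := by rw [h3]
        _ = _ := by group
  have h3 : (x * y) ^ n ∉ Subgroup.center G := by
    intro h4
    rw [h1] at h4
    apply hcon
    have := mul_mem (inv_mem hn) h4
    rwa [inv_mul_cancel_left] at this
  have h4 : C (x * y) = C y := by
    rw [← C_pow h h3, h1, h2, C_pow h hcon]
  apply hne
  symm
  apply C_eq h hy hx
  intro g hg
  have h5 : g ∈ C (x * y) := by rw [h4]; exact hg
  rw [mem_C] at h5 hg ⊢
  have h6 : (g * x) * y = (x * g) * y := by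
    calc (g * x) * y = g * (x * y) := by group
      _ = x * y * g := h5
      _ = x * (y * g) := by group
      _ = x * (g * y) := by rw [hg]
      _ = _ := by group
  exact mul_right_cancel h6

theorem claim_prime [Finite G] {x y : G} (hx : x ∉ Subgroup.center G) (hy : y ∉ Subgroup.center G) (hxy : x ∈ C y) (hne : C x ≠ C y) :
    ∃ p : ℕ, p.Prime ∧ x ^ p ∈ Subgroup.center G ∧ y ^ p ∈ Subgroup.center G := by
  have hn1 : orderOf (x : G ⧸ Subgroup.center G) ≠ 1 := by
    intro h1
    rw [orderOf_eq_one_iff] at h1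
    exact hx ((QuotientGroup.eq_one_iff x).mp h1)
  obtain ⟨p, hp, hpn⟩ := Nat.exists_prime_and_dvd hn1
  obtain ⟨m, hm⟩ := hpn
  have hm0 : 0 < m := by
    rcases Nat.eq_zero_or_pos m with h0 | h0
    · rw [h0, mul_zero] at hm
      exact absurd hm (orderOf_pos _).ne'
    · exact h0
  have hxn : x ^ (p * m) ∈ Subgroup.center G := by
    rw [← QuotientGroup.eq_one_iff, QuotientGroup.mk_pow, ← hm, pow_orderOf_eq_one]
  have hxm : x ^ m ∉ Subgroup.center G := by
    intro h1
    rw [← QuotientGroup.eq_one_iff, QuotientGroup.mk_pow] at h1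
    have h2 := Nat.le_of_dvd hm0 (orderOf_dvd_of_pow_eq_one h1)
    rw [hm] at h2
    have := hp.two_le
    nlinarith
  have hCx := C_pow h hxm
  have h1 : y ^ p ∈ Subgroup.center G := by
    apply claim h hxm hy
    · rw [mem_C] at hxy ⊢
      exact Commute.pow_left hxy m
    · rw [hCx]; exact hne
    · rw [← pow_mul, mul_comm]; exact hxn
  exact ⟨p, hp, claim h hy hx (comm_mem.mp hxy) (Ne.symm hne) h1, h1⟩

omit h in
theorem prime_unique {x : G} (hx : x ∉ Subgroup.center G) {p q : ℕ} (hp : p.Prime) (hq : q.Prime)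
    (h1 : x ^ p ∈ Subgroup.center G) (h2 : x ^ q ∈ Subgroup.center G) : p = q := by
  by_contra hne
  have hcop : Nat.gcd p q = 1 := (Nat.coprime_primes hp hq).mpr hne
  apply hx
  have h3 : (x : G ⧸ Subgroup.center G) ^ p = 1 := by
    rw [← QuotientGroup.mk_pow]; exact (QuotientGroup.eq_one_iff _).mpr h1
  have h4 : (x : G ⧸ Subgroup.center G) ^ q = 1 := by
    rw [← QuotientGroup.mk_pow]; exact (QuotientGroup.eq_one_iff _).mpr h2
  have h5 : orderOf (x : G ⧸ Subgroup.center G) ∣ Nat.gcd p q :=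
    Nat.dvd_gcd (orderOf_dvd_of_pow_eq_one h3) (orderOf_dvd_of_pow_eq_one h4)
  rw [hcop, Nat.dvd_one, orderOf_eq_one_iff] at h5
  exact (QuotientGroup.eq_one_iff x).mp h5

theorem nonab [Finite G] {x w : G} (hx : x ∉ Subgroup.center G) (hw : w ∉ Subgroup.center G) (hxw : w ∈ C x) (hne : C w ≠ C x) :
    ∃ p : ℕ, p.Prime ∧ ∀ g ∈ C x, g ^ p ∈ Subgroup.center G := by
  obtain ⟨p, hp, hwp, hxp⟩ := claim_prime h hw hx hxw hne
  refine ⟨p, hp, fun g hg => ?_⟩
  by_cases hgZ : g ∈ Subgroup.center G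
  · exact pow_mem hgZ p
  by_cases hgx : C g = C x
  · have h1 : w ∈ C g := by rw [hgx]; exact hxw
    obtain ⟨q, hq, hwq, hgq⟩ := claim_prime h hw hgZ h1 (by rw [hgx]; exact hne)
    rw [prime_unique hw hp hq hwp hwq]
    exact hgq
  · obtain ⟨q, hq, hgq, hxq⟩ := claim_prime h hgZ hx hg hgx
    rw [prime_unique hx hp hq hxp hxq]
    exact hgq

/-- a nonabelian centralizer contains a noncentral element with a different centralizer -/
theorem exists_of_nonab {x : G} (hx : x ∉ Subgroup.center G) (hna : ¬ ∀ a ∈ C x, ∀ b ∈ C x, a * b = b * a) :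
    ∃ w, w ∉ Subgroup.center G ∧ w ∈ C x ∧ C w ≠ C x := by
  push Not at hna
  obtain ⟨a, ha, b, hb, hab⟩ := hna
  refine ⟨a, fun h1 => hab (Subgroup.mem_center_iff.mp h1 b).symm, ha, fun h1 => hab ?_⟩
  have h2 : b ∈ C a := by rw [h1]; exact hb
  exact (mem_C.mp h2).symm

/-- if an element of `C x` has a different centralizer then `C x` is nonabelian -/
theorem nonab_of_ne {x w : G} (hx : x ∉ Subgroup.center G) (hw : w ∉ Subgroup.center G) (hxw : w ∈ C x) (hne : C w ≠ C x) :
    ¬ ∀ a ∈ C x, ∀ b ∈ C x, a * b = b * a := by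
  intro hab
  apply hne
  symm
  apply C_eq h hx hw
  intro g hg
  exact mem_C.mpr (hab g hg w hxw)

end A

section B
variable {G : Type u} [Group G] [Finite G] (h : CM G)

include h
/-- Case I -/
theorem case_normal (hna : ¬ ∀ a b : G, a * b = b * a) (hall : ∀ x : G, x ∉ Subgroup.center G → (C x).Normal) :
    ∃ p : ℕ, p.Prime ∧ Cfsg.IsElementaryAbelian p (⊤ : Subgroup (G ⧸ Subgroup.center G)) := by
  -- index of C x is prime
  have hidx : ∀ x : G, x ∉ Subgroup.center G → (C x).index.Prime := by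
    intro x hx
    haveI := hall x hx
    haveI : IsSimpleGroup (G ⧸ C x) := by
      haveI hnt : Nontrivial (G ⧸ C x) := by
        rw [QuotientGroup.nontrivial_iff]; exact (h x hx).1
      refine ⟨fun N hN => ?_⟩
      have h1 : C x ≤ N.comap (QuotientGroup.mk' (C x)) := by
        intro g hg
        rw [Subgroup.mem_comap]
        have : QuotientGroup.mk' (C x) g = 1 := (QuotientGroup.eq_one_iff g).mpr hg
        rw [this]; exact one_mem _
      rcases (h x hx).le_iff.mp h1 with h2 | h2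
      · right
        rw [eq_top_iff]
        intro y _
        obtain ⟨g, rfl⟩ := QuotientGroup.mk'_surjective (C x) y
        have : g ∈ N.comap (QuotientGroup.mk' (C x)) := by rw [h2]; trivial
        exact this
      · left
        rw [eq_bot_iff]
        intro y hy
        obtain ⟨g, rfl⟩ := QuotientGroup.mk'_surjective (C x) y
        have h3 : g ∈ N.comap (QuotientGroup.mk' (C x)) := hy
        rw [h2] at h3
        rw [Subgroup.mem_bot]
        exact (QuotientGroup.eq_one_iff g).mpr h3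
    -- a maximal subgroup which is normal
    obtain ⟨g, hg⟩ : ∃ g, g ∉ C x := by
      by_contra hcon
      push Not at hcon
      exact (h x hx).1 (eq_top_iff.mpr fun g _ => hcon g)
    have hcyc : IsCyclic (G ⧸ C x) := by
      have h4 : C x ⊔ Subgroup.zpowers g = ⊤ := by
        rcases (h x hx).le_iff.mp (le_sup_left : C x ≤ C x ⊔ Subgroup.zpowers g) with h5 | h5
        · exact h5
        · exfalso
          apply hg
          rw [← h5]
          exact (le_sup_right : Subgroup.zpowers g ≤ _) (Subgroup.mem_zpowers g)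
      refine ⟨⟨(g : G ⧸ C x), fun y => ?_⟩⟩
      obtain ⟨k, rfl⟩ := QuotientGroup.mk_surjective y
      have h6 : k ∈ (C x ⊔ Subgroup.zpowers g : Subgroup G) := by rw [h4]; trivial
      rw [← SetLike.mem_coe, sup_comm, Subgroup.mul_normal] at h6
      obtain ⟨z, hz, c, hc, rfl⟩ := h6
      obtain ⟨j, rfl⟩ := Subgroup.mem_zpowers_iff.mp hz
      refine ⟨j, ?_⟩
      change (g : G ⧸ C x) ^ j = ((g ^ j * c : G) : G ⧸ C x)
      rw [QuotientGroup.mk_mul, (QuotientGroup.eq_one_iff c).mpr hc, mul_one, QuotientGroup.mk_zpow]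
    letI : CommGroup (G ⧸ C x) := hcyc.commGroup
    have := IsSimpleGroup.prime_card (α := G ⧸ C x)
    rwa [Subgroup.index_eq_card]
  -- commutators are central
  have hcomm : ∀ a b : G, a * b * a⁻¹ * b⁻¹ ∈ Subgroup.center G := by
    intro a b
    rw [Subgroup.mem_center_iff]
    intro x
    by_cases hx : x ∈ Subgroup.center G
    · exact (Subgroup.mem_center_iff.mp hx _).symm
    · haveI := hall x hx
      have hp := hidx x hx
      haveI : Fact (C x).index.Prime := ⟨hp⟩
      have hcyc : IsCyclic (G ⧸ C x) := isCyclic_of_prime_card (p := (C x).index) (Subgroup.index_eq_card _).symm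
      have h1 : ((a * b * a⁻¹ * b⁻¹ : G) : G ⧸ C x) = 1 := by
        rw [QuotientGroup.mk_mul, QuotientGroup.mk_mul, QuotientGroup.mk_mul, QuotientGroup.mk_inv, QuotientGroup.mk_inv,
          hcyc.isMulCommutative.is_comm.comm (a : G ⧸ C x) (b : G ⧸ C x), mul_inv_cancel_right, mul_inv_cancel]
      have h2 : a * b * a⁻¹ * b⁻¹ ∈ C x := (QuotientGroup.eq_one_iff _).mp h1
      exact (mem_C.mp h2).symm
  have hcommQ : ∀ a b : G ⧸ Subgroup.center G, a * b = b * a := by
    intro a b
    obtain ⟨a, rfl⟩ := QuotientGroup.mk_surjective a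
    obtain ⟨b, rfl⟩ := QuotientGroup.mk_surjective b
    have h1 := (QuotientGroup.eq_one_iff _).mpr (hcomm a b)
    rw [QuotientGroup.mk_mul, QuotientGroup.mk_mul, QuotientGroup.mk_mul, QuotientGroup.mk_inv, QuotientGroup.mk_inv,
      mul_inv_eq_one, mul_inv_eq_iff_eq_mul] at h1
    exact h1
  -- x^p is central for p the index
  have hpow : ∀ x : G, x ∉ Subgroup.center G → x ^ (C x).index ∈ Subgroup.center G := by
    intro x hx
    haveI := hall x hx
    rw [Subgroup.mem_center_iff]
    intro y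
    have h1 : y ^ (C x).index ∈ C x := Subgroup.pow_index_mem _ y
    obtain ⟨z, hz⟩ : ∃ z, z = y * x * y⁻¹ * x⁻¹ := ⟨_, rfl⟩
    have hzZ : z ∈ Subgroup.center G := by rw [hz]; exact hcomm y x
    have hzc := Subgroup.mem_center_iff.mp hzZ
    have e1 : y * x * y⁻¹ = z * x := by rw [hz]; group
    have e2 : ∀ k : ℕ, y ^ k * x * (y ^ k)⁻¹ = z ^ k * x := by
      intro k
      induction k with
      | zero => simp
      | succ k ih =>
        have hzk := Subgroup.mem_center_iff.mp (pow_mem hzZ k) y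
        calc y ^ (k + 1) * x * (y ^ (k + 1))⁻¹ = y * (y ^ k * x * (y ^ k)⁻¹) * y⁻¹ := by rw [pow_succ']; group
          _ = y * (z ^ k * x) * y⁻¹ := by rw [ih]
          _ = (y * z ^ k) * x * y⁻¹ := by group
          _ = (z ^ k * y) * x * y⁻¹ := by rw [hzk]
          _ = z ^ k * (y * x * y⁻¹) := by group
          _ = z ^ k * (z * x) := by rw [e1]
          _ = z ^ (k + 1) * x := by rw [pow_succ]; group
    have e3 : z ^ (C x).index = 1 := by
      have h2 := e2 (C x).index
      rw [mem_C.mp h1, mul_inv_cancel_right] at h2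
      have h3 : 1 * x = z ^ (C x).index * x := by rw [one_mul]; exact h2
      exact (mul_right_cancel h3).symm
    have e4 : y * x ^ (C x).index * y⁻¹ = x ^ (C x).index := by
      have hzx : Commute z x := (hzc x).symm
      rw [← conj_pow, e1, hzx.mul_pow, e3, one_mul]
    rw [mul_inv_eq_iff_eq_mul] at e4
    exact e4
  push Not at hna
  obtain ⟨a, b, hab⟩ := hna
  have haZ : a ∉ Subgroup.center G := fun h1 => hab (Subgroup.mem_center_iff.mp h1 b).symm
  refine ⟨(C a).index, hidx a haZ, ⟨⟨⟨fun x y => Subtype.ext (hcommQ x y)⟩⟩, ?_⟩⟩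
  intro x _
  obtain ⟨x, rfl⟩ := QuotientGroup.mk_surjective x
  rw [← QuotientGroup.mk_pow, QuotientGroup.eq_one_iff]
  by_cases hxZ : x ∈ Subgroup.center G
  · exact pow_mem hxZ _
  -- indices agree
  have key : (C x).index = (C a).index := by
    by_contra hne
    have hcop : ((C x).index).Coprime (C a).index := (Nat.coprime_primes (hidx x hxZ) (hidx a haZ)).mpr hne
    -- x a has order p q modulo the centre
    have hc : Commute (x : G ⧸ Subgroup.center G) (a : G ⧸ Subgroup.center G) := hcommQ _ _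
    have h1 : orderOf (x : G ⧸ Subgroup.center G) = (C x).index := by
      haveI : Fact (C x).index.Prime := ⟨hidx x hxZ⟩
      apply orderOf_eq_prime
      · rw [← QuotientGroup.mk_pow]; exact (QuotientGroup.eq_one_iff _).mpr (hpow x hxZ)
      · intro h; exact hxZ ((QuotientGroup.eq_one_iff x).mp h)
    have h2 : orderOf (a : G ⧸ Subgroup.center G) = (C a).index := by
      haveI : Fact (C a).index.Prime := ⟨hidx a haZ⟩
      apply orderOf_eq_prime
      · rw [← QuotientGroup.mk_pow]; exact (QuotientGroup.eq_one_iff _).mpr (hpow a haZ)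
      · intro h; exact haZ ((QuotientGroup.eq_one_iff a).mp h)
    have h3 : orderOf ((x * a : G) : G ⧸ Subgroup.center G) = (C x).index * (C a).index := by
      rw [QuotientGroup.mk_mul, hc.orderOf_mul_eq_mul_orderOf_of_coprime (by rw [h1, h2]; exact hcop), h1, h2]
    by_cases hxa : x * a ∈ Subgroup.center G
    · rw [(QuotientGroup.eq_one_iff _).mpr hxa, orderOf_one] at h3
      have := (hidx x hxZ).one_lt
      have h4 := (hidx a haZ).one_lt
      nlinarith
    · have h4 : orderOf ((x * a : G) : G ⧸ Subgroup.center G) ∣ (C (x * a)).index := by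
        apply orderOf_dvd_of_pow_eq_one
        rw [← QuotientGroup.mk_pow]; exact (QuotientGroup.eq_one_iff _).mpr (hpow _ hxa)
      rw [h3] at h4
      rcases (Nat.dvd_prime (hidx _ hxa)).mp h4 with h5 | h5
      · have := (hidx x hxZ).one_lt
        have h4 := (hidx a haZ).one_lt
        nlinarith
      · exact Nat.not_prime_mul (hidx x hxZ).one_lt.ne' (hidx a haZ).one_lt.ne' (by rw [h5]; exact hidx _ hxa)
  rw [← key]
  exact hpow x hxZ

end B

section D
variable {G : Type u} [Group G] [Finite G]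

theorem nilp {M : Subgroup G} {p : ℕ} [hp : Fact p.Prime] (hM : ∀ g ∈ M, g ^ p ∈ Subgroup.center G) :
    IsPGroup p (M ⧸ Subgroup.center M) ∧ Group.IsNilpotent M := by
  have h1 : IsPGroup p (M ⧸ Subgroup.center M) := by
    intro y
    obtain ⟨m, rfl⟩ := QuotientGroup.mk_surjective y
    refine ⟨1, ?_⟩
    rw [pow_one, ← QuotientGroup.mk_pow, QuotientGroup.eq_one_iff, Subgroup.mem_center_iff]
    intro g
    apply Subtype.ext
    exact Subgroup.mem_center_iff.mp (hM m m.2) g
  refine ⟨h1, ?_⟩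
  haveI := h1.isNilpotent
  exact Group.of_quotient_center_nilpotent this

variable (h : CM G)
include h

theorem case_nonab {x : G} (hx : x ∉ Subgroup.center G) (hxn : ¬ (C x).Normal)
    (hna : ¬ ∀ a ∈ C x, ∀ b ∈ C x, a * b = b * a) : False := by
  obtain ⟨w, hw, hwx, hwne⟩ := exists_of_nonab h hx hna
  obtain ⟨p, hp, hexp⟩ := nonab h hx hw hwx hwne
  haveI : Fact p.Prime := ⟨hp⟩
  obtain ⟨hpM, -⟩ := nilp hexp
  obtain ⟨m₀, hm₀⟩ : ∃ m : C x, m ∉ Subgroup.center (C x) := by
    by_contra hcon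
    push Not at hcon
    apply hna
    intro a ha b hb
    have := Subgroup.mem_center_iff.mp (hcon ⟨a, ha⟩) ⟨b, hb⟩
    exact (congrArg Subtype.val this).symm
  obtain ⟨⟨y, hyx⟩, hyc, hy2⟩ := CfsgLib.FgTwoSz.exists_second hpM hm₀
  have hyZ : y ∉ Subgroup.center G := by
    intro h1
    apply hyc
    rw [Subgroup.mem_center_iff]
    intro g
    exact Subtype.ext (Subgroup.mem_center_iff.mp h1 g)
  have hne : C y ≠ C x := by
    intro h1
    apply hyc
    rw [Subgroup.mem_center_iff]
    intro g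
    have : (g : G) ∈ C y := by rw [h1]; exact g.2
    exact Subtype.ext (mem_C.mp this)
  have hxy : x ∈ C y := comm_mem.mp hyx
  obtain ⟨p', hp', hexp'⟩ := nonab h hyZ hx hxy (Ne.symm hne)
  have hpp : p' = p := prime_unique hx hp' hp (hexp' x hxy) (hexp x (self_mem x))
  subst hpp
  -- D
  obtain ⟨D, hD⟩ : ∃ D, D = C x ⊓ C y := ⟨_, rfl⟩
  have hDm : ∀ d, d ∈ D ↔ d ∈ C x ∧ d ∈ C y := by
    intro d; rw [hD]; exact Subgroup.mem_inf
  have hDn : ∀ u ∈ C x, ∀ d ∈ D, u * d * u⁻¹ ∈ D := by
    intro u hu d hd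
    obtain ⟨hd1, hd2⟩ := (hDm d).mp hd
    rw [hDm]
    refine ⟨mul_mem (mul_mem hu hd1) (inv_mem hu), ?_⟩
    have h1 := hy2 (⟨u, hu⟩⁻¹ : C x)
    have h2 := Subgroup.mem_center_iff.mp h1 ⟨d, hd1⟩
    have h3 : d * (u⁻¹ * y * u⁻¹⁻¹ * y⁻¹) = (u⁻¹ * y * u⁻¹⁻¹ * y⁻¹) * d := congrArg Subtype.val h2
    have h4 := mem_C.mp hd2
    rw [mem_C]
    calc u * d * u⁻¹ * y = u * (d * (u⁻¹ * y * u⁻¹⁻¹ * y⁻¹)) * y * u⁻¹ := by group
      _ = u * ((u⁻¹ * y * u⁻¹⁻¹ * y⁻¹) * d) * y * u⁻¹ := by rw [h3]
      _ = u * (u⁻¹ * y * u⁻¹⁻¹ * y⁻¹) * (d * y) * u⁻¹ := by group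
      _ = u * (u⁻¹ * y * u⁻¹⁻¹ * y⁻¹) * (y * d) * u⁻¹ := by rw [h4]
      _ = _ := by group
  obtain ⟨-, hnil⟩ := nilp hexp'
  have hlt : D.subgroupOf (C y) < ⊤ := by
    rw [lt_top_iff_ne_top]
    intro h1
    rw [Subgroup.subgroupOf_eq_top] at h1
    exact hne (C_eq h hyZ hx (h1.trans (by rw [hD]; exact inf_le_left)))
  have hnc := Group.normalizerCondition_of_isNilpotent (G := C y) _ hlt
  obtain ⟨-, hnc2⟩ := (SetLike.lt_iff_le_and_exists).mp hnc
  obtain ⟨⟨g, hgy⟩, hgN, hgD⟩ := hnc2
  have hDC : D ≤ C y := by rw [hD]; exact inf_le_right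
  have hgN' : g ∈ Subgroup.normalizer (D : Set G) := by
    rw [Subgroup.mem_normalizer_iff] at hgN ⊢
    intro d
    constructor
    · intro hd
      exact (hgN ⟨d, hDC hd⟩).mp hd
    · intro hd
      have hdy : d ∈ C y := by
        have := mul_mem (mul_mem (inv_mem hgy) (hDC hd)) hgy
        have e : g⁻¹ * (g * d * g⁻¹) * g = d := by group
        rwa [e] at this
      exact (hgN ⟨d, hdy⟩).mpr hd
  have hgx : g ∉ C x := by
    intro h1
    apply hgD
    rw [Subgroup.mem_subgroupOf]
    exact (hDm g).mpr ⟨h1, hgy⟩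
  have hxN : C x ≤ Subgroup.normalizer (D : Set G) := by
    intro u hu
    rw [Subgroup.mem_normalizer_iff]
    intro d
    constructor
    · exact hDn u hu d
    · intro hd
      have := hDn u⁻¹ (inv_mem hu) _ hd
      have e : u⁻¹ * (u * d * u⁻¹) * u⁻¹⁻¹ = d := by group
      rwa [e] at this
  haveI hDnorm : D.Normal := by
    rw [← Subgroup.normalizer_eq_top_iff]
    rcases (h x hx).le_iff.mp hxN with h1 | h1
    · exact h1
    · exfalso
      apply hgx
      rw [← h1]; exact hgN'
  obtain ⟨V, hV⟩ : ∃ V, V = D ⊓ Subgroup.centralizer (D : Set G) := ⟨_, rfl⟩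
  haveI hVn : V.Normal := by rw [hV]; infer_instance
  have hVD : V ≤ D := by rw [hV]; exact inf_le_left
  have hVcomm : ∀ v ∈ V, ∀ d ∈ D, d * v = v * d := by
    intro v hv d hd
    rw [hV] at hv
    exact Subgroup.mem_centralizer_iff.mp (Subgroup.mem_inf.mp hv).2 d hd
  have hxV : x ∈ V := by
    rw [hV]
    refine Subgroup.mem_inf.mpr ⟨(hDm x).mpr ⟨self_mem x, hxy⟩, ?_⟩
    rw [Subgroup.mem_centralizer_iff]
    intro d hd
    exact mem_C.mp ((hDm d).mp hd).1
  have hyV : y ∈ V := by
    rw [hV]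
    refine Subgroup.mem_inf.mpr ⟨(hDm y).mpr ⟨hyx, self_mem y⟩, ?_⟩
    rw [Subgroup.mem_centralizer_iff]
    intro d hd
    exact mem_C.mp ((hDm d).mp hd).2
  have hZV : Subgroup.center G ≤ V := by
    intro z hz
    rw [hV]
    refine Subgroup.mem_inf.mpr ⟨(hDm z).mpr ⟨center_le x hz, center_le y hz⟩, ?_⟩
    rw [Subgroup.mem_centralizer_iff]
    intro d _
    exact Subgroup.mem_center_iff.mp hz d
  -- G/Z is not a p-group
  have hnp : ¬ IsPGroup p' (G ⧸ Subgroup.center G) := by
    intro h1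
    haveI := h1.isNilpotent
    haveI : Group.IsNilpotent G := Group.of_quotient_center_nilpotent this
    exact hxn (Subgroup.NormalizerCondition.normal_of_coatom _ (Group.normalizerCondition_of_isNilpotent (G := G)) (h x hx))
  obtain ⟨q, g, hq, hqp, hgZ, hgq⟩ : ∃ (q : ℕ) (g : G), q.Prime ∧ q ≠ p' ∧ g ∉ Subgroup.center G ∧ g ^ q ∈ Subgroup.center G := by
    rw [IsPGroup.iff_orderOf] at hnp
    push Not at hnp
    obtain ⟨g', hg'⟩ := hnp
    obtain ⟨g, rfl⟩ := QuotientGroup.mk_surjective g'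
    obtain ⟨q, hq, hqd, hqp⟩ : ∃ q : ℕ, q.Prime ∧ q ∣ orderOf (g : G ⧸ Subgroup.center G) ∧ q ≠ p' := by
      by_contra hcon
      push Not at hcon
      apply hg' _ (Nat.eq_prime_pow_of_unique_prime_dvd (orderOf_pos _).ne' (fun {d} hd hdd => hcon d hd hdd))
    obtain ⟨m, hm⟩ := hqd
    have hm0 : 0 < m := by
      rcases Nat.eq_zero_or_pos m with h0 | h0
      · rw [h0, mul_zero] at hm
        exact absurd hm (orderOf_pos _).ne'
      · exact h0
    refine ⟨q, g ^ m, hq, hqp, ?_, ?_⟩
    · intro h1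
      rw [← QuotientGroup.eq_one_iff, QuotientGroup.mk_pow] at h1
      have h2 := Nat.le_of_dvd hm0 (orderOf_dvd_of_pow_eq_one h1)
      rw [hm] at h2
      have := hq.two_le
      nlinarith
    · rw [← pow_mul, mul_comm, ← QuotientGroup.eq_one_iff, QuotientGroup.mk_pow, ← hm, pow_orderOf_eq_one]
  -- V ∩ C g ≤ Z
  have hVg : ∀ v ∈ V, v ∈ C g → v ∈ Subgroup.center G := by
    intro v hv hvg
    by_contra hvZ
    obtain ⟨w, hwV, hwZ, hwx', hne'⟩ : ∃ w, w ∈ V ∧ w ∉ Subgroup.center G ∧ w ∈ C x ∧ C w ≠ C v := by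
      by_cases h1 : C x = C v
      · exact ⟨y, hyV, hyZ, hyx, fun h2 => hne (h2.trans h1.symm)⟩
      · exact ⟨x, hxV, hx, self_mem x, h1⟩
    have hwv : w ∈ C v := mem_C.mpr (hVcomm v hv w (hVD hwV))
    obtain ⟨r, hr, hexpr⟩ := nonab h hvZ hwZ hwv hne'
    have hrp : r = p' := prime_unique hwZ hr hp (hexpr w hwv) (hexp w hwx')
    subst hrp
    exact hqp (prime_unique hgZ hq hr hgq (hexpr g (comm_mem.mp hvg)))
  have htop : C g ⊔ V = ⊤ := by
    rcases (h g hgZ).le_iff.mp (le_sup_left : C g ≤ C g ⊔ V) with h1 | h1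
    · exact h1
    · exfalso
      apply hx
      apply hVg x hxV
      rw [← h1]
      exact (le_sup_right : V ≤ C g ⊔ V) hxV
  have hdec : ∀ u : G, ∃ v ∈ V, ∃ c ∈ C g, v * c = u := by
    intro u
    have h1 : u ∈ C g ⊔ V := by rw [htop]; trivial
    rw [← SetLike.mem_coe, sup_comm, Subgroup.normal_mul] at h1
    obtain ⟨v, hv, c, hc, rfl⟩ := h1
    exact ⟨v, hv, c, hc, rfl⟩
  have hVx : V ≤ C x := fun v hv => ((hDm v).mp (hVD hv)).1
  have hgab : ∀ a ∈ C g, ∀ b ∈ C g, a * b = b * a := by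
    by_contra hcon
    obtain ⟨w', hw', hwg', hwne'⟩ := exists_of_nonab h hgZ hcon
    obtain ⟨r, hr, hexpr⟩ := nonab h hgZ hw' hwg' hwne'
    have hrq : r = q := prime_unique hgZ hr hq (hexpr g (self_mem g)) hgq
    subst hrq
    -- M ≤ V
    have hMV : C x ≤ V := by
      intro m hm
      obtain ⟨v, hv, c, hc, rfl⟩ := hdec m
      have hcx : c ∈ C x := by
        have := mul_mem (inv_mem (hVx hv)) hm
        rwa [inv_mul_cancel_left] at this
      have hcZ : c ∈ Subgroup.center G := by
        by_contra hcZ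
        exact hqp (prime_unique hcZ hr hp (hexpr c hc) (hexp c hcx))
      exact mul_mem hv (hZV hcZ)
    apply hna
    intro a ha b hb
    exact hVcomm b (hMV hb) a (hVD (hMV ha))
  apply hxn
  refine ⟨fun m hm u => ?_⟩
  have h1 : (u : G ⧸ V) * (m : G ⧸ V) = (m : G ⧸ V) * (u : G ⧸ V) := by
    obtain ⟨v, hv, c, hc, rfl⟩ := hdec u
    obtain ⟨v', hv', c', hc', rfl⟩ := hdec m
    rw [QuotientGroup.mk_mul, QuotientGroup.mk_mul, (QuotientGroup.eq_one_iff v).mpr hv, (QuotientGroup.eq_one_iff v').mpr hv',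
      one_mul, one_mul, ← QuotientGroup.mk_mul, ← QuotientGroup.mk_mul, hgab c hc c' hc']
  have h2 : ((u * m * u⁻¹ * m⁻¹ : G) : G ⧸ V) = 1 := by
    rw [QuotientGroup.mk_mul, QuotientGroup.mk_mul, QuotientGroup.mk_mul, QuotientGroup.mk_inv, QuotientGroup.mk_inv,
      h1, mul_inv_cancel_right, mul_inv_cancel]
  have h3 := mul_mem (hVx ((QuotientGroup.eq_one_iff _).mp h2)) hm
  rwa [inv_mul_cancel_right] at h3

end D

section E
variable {G : Type u} [Group G] [Finite G]

/-- a normal maximal subgroup has prime index -/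
theorem index_prime {K : Subgroup G} [K.Normal] (hK : IsCoatom K) : K.index.Prime := by
  haveI : IsSimpleGroup (G ⧸ K) := by
    haveI hnt : Nontrivial (G ⧸ K) := by
      rw [QuotientGroup.nontrivial_iff]; exact hK.1
    refine ⟨fun N hN => ?_⟩
    have h1 : K ≤ N.comap (QuotientGroup.mk' K) := by
      intro g hg
      rw [Subgroup.mem_comap]
      have : QuotientGroup.mk' K g = 1 := (QuotientGroup.eq_one_iff g).mpr hg
      rw [this]; exact one_mem _
    rcases hK.le_iff.mp h1 with h2 | h2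
    · right
      rw [eq_top_iff]
      intro y _
      obtain ⟨g, rfl⟩ := QuotientGroup.mk'_surjective K y
      have : g ∈ N.comap (QuotientGroup.mk' K) := by rw [h2]; trivial
      exact this
    · left
      rw [eq_bot_iff]
      intro y hy
      obtain ⟨g, rfl⟩ := QuotientGroup.mk'_surjective K y
      have h3 : g ∈ N.comap (QuotientGroup.mk' K) := hy
      rw [h2] at h3
      rw [Subgroup.mem_bot]
      exact (QuotientGroup.eq_one_iff g).mpr h3
  obtain ⟨g, hg⟩ : ∃ g, g ∉ K := by
    by_contra hcon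
    push Not at hcon
    exact hK.1 (eq_top_iff.mpr fun g _ => hcon g)
  have hcyc : IsCyclic (G ⧸ K) := by
    have h4 : K ⊔ Subgroup.zpowers g = ⊤ := by
      rcases hK.le_iff.mp (le_sup_left : K ≤ K ⊔ Subgroup.zpowers g) with h5 | h5
      · exact h5
      · exfalso
        apply hg
        rw [← h5]
        exact (le_sup_right : Subgroup.zpowers g ≤ _) (Subgroup.mem_zpowers g)
    refine ⟨⟨(g : G ⧸ K), fun y => ?_⟩⟩
    obtain ⟨k, rfl⟩ := QuotientGroup.mk_surjective y
    have h6 : k ∈ (K ⊔ Subgroup.zpowers g : Subgroup G) := by rw [h4]; trivial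
    rw [← SetLike.mem_coe, sup_comm, Subgroup.mul_normal] at h6
    obtain ⟨z, hz, c, hc, rfl⟩ := h6
    obtain ⟨j, rfl⟩ := Subgroup.mem_zpowers_iff.mp hz
    refine ⟨j, ?_⟩
    change (g : G ⧸ K) ^ j = ((g ^ j * c : G) : G ⧸ K)
    rw [QuotientGroup.mk_mul, (QuotientGroup.eq_one_iff c).mpr hc, mul_one, QuotientGroup.mk_zpow]
  letI : CommGroup (G ⧸ K) := hcyc.commGroup
  have := IsSimpleGroup.prime_card (α := G ⧸ K)
  rwa [Subgroup.index_eq_card]

/-- the conclusion for the quotient -/
theorem quot_concl {K M : Subgroup G} [hKn : K.Normal] (hKco : IsCoatom K) (hMco : IsCoatom M) (hMn : ¬ M.Normal)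
    (hKM : Subgroup.IsComplement' K M) (hK : (K : Set G) = Cfsg.frobeniusKernel M)
    (hKab : ∀ a ∈ K, ∀ b ∈ K, a * b = b * a) :
    (¬ IsMulCommutative G ∧ (∀ H : Subgroup G, H ≠ ⊤ → IsMulCommutative ↥H) ∧
      ∃ p q a : ℕ, p.Prime ∧ q.Prime ∧ p ≠ q ∧ Nat.card G = p ^ a * q ∧
        ∀ P : Subgroup G, Nat.card ↥P = p ^ a → P.Normal) := by
  have hq := index_prime hKco
  have hMcard : Nat.card M = K.index := hKM.symm.index_eq_card.symm
  have hinf : K ⊓ M = ⊥ := hKM.disjoint.eq_bot
  have hKbot : K ≠ ⊥ := by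
    intro h1
    apply hMco.1
    have h2 := hKM.card_mul
    rw [h1, Subgroup.card_bot, one_mul] at h2
    exact Subgroup.eq_top_of_card_eq _ h2
  have hK1 : Nat.card K ≠ 1 := fun h1 => hKbot (Subgroup.eq_bot_of_card_eq _ h1)
  obtain ⟨p, hp, hpK⟩ := Nat.exists_prime_and_dvd hK1
  haveI : Fact p.Prime := ⟨hp⟩
  obtain ⟨P⟩ := (inferInstance : Nonempty (Sylow p K))
  have hPn : (P : Subgroup K).Normal := by
    refine ⟨fun x hx g => ?_⟩
    have : g * x * g⁻¹ = x := by
      rw [mul_inv_eq_iff_eq_mul]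
      exact Subtype.ext (hKab g g.2 x x.2)
    rw [this]; exact hx
  haveI : (P : Subgroup K).Characteristic := P.characteristic_of_normal hPn
  haveI hPn' : ((P : Subgroup K).map K.subtype).Normal := ConjAct.normal_of_characteristic_of_normal
  have hPbot : (P : Subgroup K) ≠ ⊥ := P.ne_bot_of_dvd_card hpK
  have hPK : (P : Subgroup K).map K.subtype ≤ K := Subgroup.map_subtype_le _
  have hPeq : (P : Subgroup K).map K.subtype = K := by
    have h1 : (P : Subgroup K).map K.subtype ⊔ M = ⊤ := by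
      rcases hMco.le_iff.mp (le_sup_right : M ≤ (P : Subgroup K).map K.subtype ⊔ M) with h2 | h2
      · exact h2
      · exfalso
        apply hPbot
        rw [eq_bot_iff]
        intro y hy
        have h3 : (y : G) ∈ K ⊓ M := by
          refine Subgroup.mem_inf.mpr ⟨y.2, ?_⟩
          rw [← h2]
          exact (le_sup_left : (P : Subgroup K).map K.subtype ≤ _) ⟨y, hy, rfl⟩
        rw [hinf, Subgroup.mem_bot] at h3
        rw [Subgroup.mem_bot]
        exact Subtype.ext h3
    apply le_antisymm hPK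
    intro k hk
    have h2 : k ∈ (P : Subgroup K).map K.subtype ⊔ M := by rw [h1]; trivial
    rw [← SetLike.mem_coe, Subgroup.normal_mul] at h2
    obtain ⟨y, hy, m, hm, hym⟩ := h2
    have hym' : y * m = k := hym
    have h3 : m ∈ K ⊓ M := by
      refine Subgroup.mem_inf.mpr ⟨?_, hm⟩
      rw [← hym'] at hk
      have := mul_mem (inv_mem (hPK hy)) hk
      rwa [inv_mul_cancel_left] at this
    rw [hinf, Subgroup.mem_bot] at h3
    rw [← hym', h3, mul_one]
    exact hy
  obtain ⟨a, ha⟩ := IsPGroup.iff_card.mp P.isPGroup'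
  have hKcard : Nat.card K = p ^ a := by
    rw [← ha]
    conv_lhs => rw [← hPeq]
    exact Subgroup.card_map_of_injective K.subtype_injective
  have hcardG : Nat.card G = p ^ a * K.index := by rw [← hKcard, Subgroup.card_mul_index]
  have hpq : p ≠ K.index := by
    intro h1
    have h2 : IsPGroup p G := IsPGroup.of_card (n := a + 1) (by rw [hcardG, ← h1, pow_succ])
    haveI := h2.isNilpotent
    exact hMn (Subgroup.NormalizerCondition.normal_of_coatom _ (Group.normalizerCondition_of_isNilpotent (G := G)) hMco)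
  refine ⟨?_, ?_, p, K.index, a, hp, hq, hpq, hcardG, ?_⟩
  · intro h1
    apply hMn
    refine ⟨fun x hx g => ?_⟩
    rw [h1.is_comm.comm g x, mul_inv_cancel_right]
    exact hx
  · intro H hH
    refine ⟨⟨fun x y => Subtype.ext ?_⟩⟩
    by_cases hHK : H ≤ K
    · exact hKab x (hHK x.2) y (hHK y.2)
    · obtain ⟨z, hzH, hzK⟩ := Set.not_subset.mp hHK
      have hz1 : z ∉ Cfsg.frobeniusKernel M := by rw [← hK]; exact hzK
      have hz2 : ¬ (z = 1 ∨ ∀ g : G, z ∉ MulAut.conj g • M) := hz1
      push Not at hz2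
      obtain ⟨hz3, g, hg⟩ := hz2
      rw [CfsgLib.Frob6.mem_conj] at hg
      have hz4 : g⁻¹ * z * g ≠ 1 := by
        intro h1
        apply hz3
        have : z = g * (g⁻¹ * z * g) * g⁻¹ := by group
        rw [this, h1]; group
      haveI : Fact (Nat.card M).Prime := ⟨by rw [hMcard]; exact hq⟩
      have hgen : ∀ m ∈ M, m ∈ Subgroup.zpowers (g⁻¹ * z * g) := by
        intro m hm
        have h1 := mem_zpowers_of_prime_card (G := M) (p := Nat.card M) rfl (g := ⟨_, hg⟩) (g' := ⟨m, hm⟩)
          (fun h => hz4 (congrArg Subtype.val h))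
        obtain ⟨k, hk⟩ := Subgroup.mem_zpowers_iff.mp h1
        refine Subgroup.mem_zpowers_iff.mpr ⟨k, ?_⟩
        have := congrArg Subtype.val hk
        simpa using this
      obtain ⟨H', hH'⟩ : ∃ H' : Subgroup G, ∀ w, w ∈ H' ↔ g * w * g⁻¹ ∈ H := by
        refine ⟨H.comap (MulAut.conj g).toMonoidHom, fun w => Iff.rfl⟩
      have hMH' : M ≤ H' := by
        intro m hm
        obtain ⟨k, hk⟩ := Subgroup.mem_zpowers_iff.mp (hgen m hm)
        rw [hH', ← hk]
        have e : g * (g⁻¹ * z * g) ^ k * g⁻¹ = z ^ k := by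
          rw [← conj_zpow]
          congr 1
          group
        rw [e]
        exact zpow_mem hzH k
      rcases hMco.le_iff.mp hMH' with h1 | h1
      · exfalso
        apply hH
        rw [eq_top_iff]
        intro w _
        have : g⁻¹ * w * g ∈ H' := by rw [h1]; trivial
        rw [hH'] at this
        have e : g * (g⁻¹ * w * g) * g⁻¹ = w := by group
        rwa [e] at this
      · have key : ∀ w ∈ H, g⁻¹ * w * g ∈ M := by
          intro w hw
          rw [← h1, hH']
          have e : g * (g⁻¹ * w * g) * g⁻¹ = w := by group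
          rw [e]; exact hw
        haveI : IsCyclic M := isCyclic_of_prime_card (p := Nat.card M) rfl
        have h2 := (inferInstance : IsCyclic M).isMulCommutative.is_comm.comm ⟨_, key x x.2⟩ ⟨_, key y y.2⟩
        have h3 : (g⁻¹ * (x : G) * g) * (g⁻¹ * y * g) = (g⁻¹ * y * g) * (g⁻¹ * x * g) := congrArg Subtype.val h2
        calc (x : G) * y = g * ((g⁻¹ * (x : G) * g) * (g⁻¹ * y * g)) * g⁻¹ := by group
          _ = g * ((g⁻¹ * y * g) * (g⁻¹ * x * g)) * g⁻¹ := by rw [h3]
          _ = (y : G) * x := by group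
  · intro Q hQ
    have hQK : Q ≤ K := by
      intro z hz
      have h1 : orderOf (z : G ⧸ K) ∣ p ^ a := by
        apply orderOf_dvd_of_pow_eq_one
        rw [← QuotientGroup.mk_pow, ← hQ]
        have : (⟨z, hz⟩ : Q) ^ Nat.card Q = 1 := pow_card_eq_one'
        have h2 : z ^ Nat.card Q = 1 := congrArg Subtype.val this
        rw [h2]; rfl
      have h2 : orderOf (z : G ⧸ K) ∣ K.index := by
        rw [Subgroup.index_eq_card]; exact orderOf_dvd_natCard _
      have h3 : (p ^ a).Coprime K.index := Nat.Coprime.pow_left a ((Nat.coprime_primes hp hq).mpr hpq)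
      have h4 := Nat.eq_one_of_dvd_coprimes h3 h1 h2
      rw [orderOf_eq_one_iff] at h4
      exact (QuotientGroup.eq_one_iff z).mp h4
    have h1 : Q = K := Subgroup.eq_of_le_of_card_ge hQK (by rw [hQ, hKcard])
    rw [h1]; exact hKn

variable (h : CM G)
include h

theorem case_ab {x : G} (hx : x ∉ Subgroup.center G) (hxn : ¬ (C x).Normal)
    (hab : ∀ a ∈ C x, ∀ b ∈ C x, a * b = b * a) :
    (¬ IsMulCommutative (G ⧸ Subgroup.center G) ∧ (∀ H : Subgroup (G ⧸ Subgroup.center G), H ≠ ⊤ → IsMulCommutative ↥H) ∧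
      ∃ p q a : ℕ, p.Prime ∧ q.Prime ∧ p ≠ q ∧ Nat.card (G ⧸ Subgroup.center G) = p ^ a * q ∧
        ∀ P : Subgroup (G ⧸ Subgroup.center G), Nat.card ↥P = p ^ a → P.Normal) := by
  have hco := h x hx
  have hCm : ∀ m ∈ C x, m ∉ Subgroup.center G → C m = C x := by
    intro m hm hmZ
    symm
    apply C_eq h hx hmZ
    intro g hg
    exact mem_C.mpr (hab g hg m hm)
  have hNM : ∀ g, g ∈ Subgroup.normalizer (C x : Set G) → g ∈ C x := by
    intro g hg
    rcases hco.le_iff.mp (Subgroup.le_normalizer (H := C x)) with h1 | h1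
    · exact absurd (Subgroup.normalizer_eq_top_iff.mp h1) hxn
    · rwa [h1] at hg
  have hTI : ∀ g, g ∉ C x → ∀ m ∈ C x, g⁻¹ * m * g ∈ C x → m ∈ Subgroup.center G := by
    intro g hg m hm hm'
    by_contra hmZ
    have hm'Z : g⁻¹ * m * g ∉ Subgroup.center G := by
      intro h1
      apply hmZ
      have h2 := (inferInstance : (Subgroup.center G).Normal).conj_mem _ h1 g
      have e : g * (g⁻¹ * m * g) * g⁻¹ = m := by group
      rwa [e] at h2
    apply hg
    apply hNM
    rw [Subgroup.mem_normalizer_iff]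
    intro u
    have h1 := hCm _ hm' hm'Z
    have h2 := hCm _ hm hmZ
    have h3 : g * u * g⁻¹ ∈ C m ↔ u ∈ C (g⁻¹ * m * g) := by
      have e : m = g * (g⁻¹ * m * g) * g⁻¹ := by group
      conv_lhs => rw [e]
      rw [C_conj]
      have e2 : g⁻¹ * (g * u * g⁻¹) * g = u := by group
      rw [e2]
    rw [h1, h2] at h3
    exact h3.symm
  obtain ⟨Z, hZ⟩ : ∃ Z, Z = Subgroup.center G := ⟨_, rfl⟩
  haveI : Z.Normal := by rw [hZ]; infer_instance
  -- pass to the quotient
  have hmemM : ∀ g : G, QuotientGroup.mk' (Subgroup.center G) g ∈ (C x).map (QuotientGroup.mk' (Subgroup.center G)) ↔ g ∈ C x := by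
    intro g
    constructor
    · rintro ⟨m, hm, hmg⟩
      have h1 : m⁻¹ * g ∈ Subgroup.center G := QuotientGroup.eq.mp hmg
      have h2 := mul_mem hm (center_le x h1)
      rwa [mul_inv_cancel_left] at h2
    · intro hg
      exact ⟨g, hg, rfl⟩
  have hfr : ∀ g : G ⧸ Subgroup.center G, g ∉ (C x).map (QuotientGroup.mk' (Subgroup.center G)) →
      (C x).map (QuotientGroup.mk' (Subgroup.center G)) ⊓ (MulAut.conj g • (C x).map (QuotientGroup.mk' (Subgroup.center G))) = ⊥ := by
    intro g hg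
    obtain ⟨g, rfl⟩ := QuotientGroup.mk'_surjective _ g
    rw [hmemM] at hg
    rw [eq_bot_iff]
    intro y hy
    obtain ⟨hy1, hy2⟩ := Subgroup.mem_inf.mp hy
    obtain ⟨y, rfl⟩ := QuotientGroup.mk'_surjective _ y
    rw [hmemM] at hy1
    rw [CfsgLib.Frob6.mem_conj, ← map_inv, ← map_mul, ← map_mul, hmemM] at hy2
    rw [Subgroup.mem_bot]
    exact (QuotientGroup.eq_one_iff y).mpr (hTI g hg y hy1 hy2)
  obtain ⟨K, hK, hKn, hKM⟩ := CfsgLib.Frob6.frobenius_kernel _ hfr
  have hKmem : ∀ k : G, QuotientGroup.mk' (Subgroup.center G) k ∈ K → k ∈ C x → k ∈ Subgroup.center G := by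
    intro k hk hkx
    have h1 : QuotientGroup.mk' (Subgroup.center G) k ∈ K ⊓ (C x).map (QuotientGroup.mk' (Subgroup.center G)) :=
      Subgroup.mem_inf.mpr ⟨hk, (hmemM k).mpr hkx⟩
    rw [hKM.disjoint.eq_bot, Subgroup.mem_bot] at h1
    exact (QuotientGroup.eq_one_iff k).mp h1
  have hCK : ∀ k : G, QuotientGroup.mk' (Subgroup.center G) k ∈ K → k ∉ Subgroup.center G →
      ∀ c ∈ C k, QuotientGroup.mk' (Subgroup.center G) c ∈ K := by
    intro k hk hkZ c hc
    by_contra hcK
    have h1 : QuotientGroup.mk' (Subgroup.center G) c ∉ Cfsg.frobeniusKernel ((C x).map (QuotientGroup.mk' (Subgroup.center G))) := by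
      rw [← hK]; exact hcK
    have h2 : ¬ (QuotientGroup.mk' (Subgroup.center G) c = 1 ∨ ∀ g : G ⧸ Subgroup.center G,
      QuotientGroup.mk' (Subgroup.center G) c ∉ MulAut.conj g • (C x).map (QuotientGroup.mk' (Subgroup.center G))) := h1
    push Not at h2
    obtain ⟨h3, g, hg⟩ := h2
    obtain ⟨g, rfl⟩ := QuotientGroup.mk'_surjective _ g
    rw [CfsgLib.Frob6.mem_conj, ← map_inv, ← map_mul, ← map_mul, hmemM] at hg
    have hcZ : g⁻¹ * c * g ∉ Subgroup.center G := by
      intro h4
      apply h3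
      have h5 := (inferInstance : (Subgroup.center G).Normal).conj_mem _ h4 g
      have e : g * (g⁻¹ * c * g) * g⁻¹ = c := by group
      rw [e] at h5
      exact (QuotientGroup.eq_one_iff c).mpr h5
    have h4 := hCm _ hg hcZ
    have h5 : g⁻¹ * k * g ∈ C x := by
      rw [← h4, mem_C]
      have h6 := mem_C.mp hc
      calc g⁻¹ * k * g * (g⁻¹ * c * g) = g⁻¹ * (k * c) * g := by group
        _ = g⁻¹ * (c * k) * g := by rw [h6]
        _ = _ := by group
    have h6 : QuotientGroup.mk' (Subgroup.center G) (g⁻¹ * k * g) ∈ K := by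
      rw [map_mul, map_mul, map_inv]
      have := hKn.conj_mem _ hk (QuotientGroup.mk' (Subgroup.center G) g)⁻¹
      rwa [inv_inv] at this
    have h7 := hKmem _ h6 h5
    apply hkZ
    have h8 := (inferInstance : (Subgroup.center G).Normal).conj_mem _ h7 g
    have e : g * (g⁻¹ * k * g) * g⁻¹ = k := by group
    rwa [e] at h8
  have hKne : K.comap (QuotientGroup.mk' (Subgroup.center G)) ≠ ⊤ := by
    intro h1
    apply hx
    apply hKmem x _ (self_mem x)
    have : x ∈ K.comap (QuotientGroup.mk' (Subgroup.center G)) := by rw [h1]; trivial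
    exact this
  have hCK2 : ∀ k : G, QuotientGroup.mk' (Subgroup.center G) k ∈ K → k ∉ Subgroup.center G →
      K.comap (QuotientGroup.mk' (Subgroup.center G)) = C k := by
    intro k hk hkZ
    rcases (h k hkZ).le_iff.mp (show C k ≤ K.comap (QuotientGroup.mk' (Subgroup.center G)) from fun c hc => hCK k hk hkZ c hc) with h1 | h1
    · exact absurd h1 hKne
    · exact h1
  have hKab : ∀ a ∈ K, ∀ b ∈ K, a * b = b * a := by
    intro a ha b hb
    obtain ⟨a, rfl⟩ := QuotientGroup.mk'_surjective _ a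
    obtain ⟨b, rfl⟩ := QuotientGroup.mk'_surjective _ b
    rw [← map_mul, ← map_mul]
    congr 1
    by_cases haZ : a ∈ Subgroup.center G
    · exact (Subgroup.mem_center_iff.mp haZ b).symm
    · have h1 : b ∈ C a := by
        rw [← hCK2 a ha haZ]; exact hb
      exact (mem_C.mp h1).symm
  have hMco : IsCoatom ((C x).map (QuotientGroup.mk' (Subgroup.center G))) := by
    constructor
    · intro h1
      apply hco.1
      rw [eq_top_iff]
      intro g _
      rw [← hmemM, h1]; trivial
    · intro L hL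
      have h1 : C x < L.comap (QuotientGroup.mk' (Subgroup.center G)) := by
        obtain ⟨h2, h3⟩ := (SetLike.lt_iff_le_and_exists).mp hL
        obtain ⟨l, hl, hl2⟩ := h3
        obtain ⟨l, rfl⟩ := QuotientGroup.mk'_surjective _ l
        refine (SetLike.lt_iff_le_and_exists).mpr ⟨fun g hg => h2 ⟨g, hg, rfl⟩, l, hl, fun h4 => hl2 ((hmemM l).mpr h4)⟩
      have h2 := hco.2 _ h1
      rw [eq_top_iff]
      intro l _
      obtain ⟨l, rfl⟩ := QuotientGroup.mk'_surjective _ l
      have : l ∈ L.comap (QuotientGroup.mk' (Subgroup.center G)) := by rw [h2]; trivial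
      exact this
  have hMn : ¬ ((C x).map (QuotientGroup.mk' (Subgroup.center G))).Normal := by
    intro h1
    apply hxn
    refine ⟨fun m hm g => ?_⟩
    rw [← hmemM, map_mul, map_mul, map_inv]
    exact h1.conj_mem _ ((hmemM m).mpr hm) _
  have hKbot : ∃ k : G, QuotientGroup.mk' (Subgroup.center G) k ∈ K ∧ k ∉ Subgroup.center G := by
    by_contra hcon
    push Not at hcon
    have h1 : K = ⊥ := by
      rw [eq_bot_iff]
      intro k hk
      obtain ⟨k, rfl⟩ := QuotientGroup.mk'_surjective _ k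
      rw [Subgroup.mem_bot]
      exact (QuotientGroup.eq_one_iff k).mpr (hcon k hk)
    apply hMco.1
    have h2 := hKM.card_mul
    rw [h1, Subgroup.card_bot, one_mul] at h2
    exact Subgroup.eq_top_of_card_eq _ h2
  obtain ⟨k, hk, hkZ⟩ := hKbot
  have hKco' : IsCoatom (K.comap (QuotientGroup.mk' (Subgroup.center G))) := by
    rw [hCK2 k hk hkZ]; exact h k hkZ
  have hKco : IsCoatom K := by
    constructor
    · intro h1
      apply hKne
      rw [h1, Subgroup.comap_top]
    · intro L hL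
      have h1 : K.comap (QuotientGroup.mk' (Subgroup.center G)) < L.comap (QuotientGroup.mk' (Subgroup.center G)) := by
        obtain ⟨h2, h3⟩ := (SetLike.lt_iff_le_and_exists).mp hL
        obtain ⟨l, hl, hl2⟩ := h3
        obtain ⟨l, rfl⟩ := QuotientGroup.mk'_surjective _ l
        exact (SetLike.lt_iff_le_and_exists).mpr ⟨fun g hg => h2 hg, l, hl, fun h4 => hl2 h4⟩
      have h2 := hKco'.2 _ h1
      rw [eq_top_iff]
      intro l _
      obtain ⟨l, rfl⟩ := QuotientGroup.mk'_surjective _ l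
      have : l ∈ L.comap (QuotientGroup.mk' (Subgroup.center G)) := by rw [h2]; trivial
      exact this
  exact quot_concl hKco hMco hMn hKM hK hKab

end E

end CfsgLib.FgCM
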