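import Cfsg.Agent.LibFgDL
import Cfsg.Agent.LibLE11PGV1

set_option autoImplicit false
set_option linter.all false

/-! Derived length of `p`-subgroups of linear groups: equal characteristic. -/

open Module
open scoped commutatorElement

namespace CfsgLib.FgDL

universe u v w

/-- fixed vectors of `p`-groups in characteristic `p` -/
theorem fixed_vec {p : ℕ} [hp : Fact p.Prime] {K : Type w} [Field K] [CharP K p] {P : Type u} [Group P] [Finite P]
    (hP : IsPGroup p P) {V : Type v} [AddCommGroup V] [Module K V] [Nontrivial V] (ρ : P →* Module.End K V) :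
    ∃ v : V, v ≠ 0 ∧ ∀ g : P, ρ g v = v := by
  classical
  obtain ⟨t, ht⟩ := exists_ne (0 : V)
  let S : Set V := Set.range (fun u : P => ρ u t)
  let W := AddSubgroup.closure S
  haveI hSfin : Finite S := Set.finite_range _
  haveI : AddGroup.FG W := AddGroup.closure_finite_fg S
  have htor : ∀ w : V, p • w = 0 := by
    intro w
    rw [← Nat.cast_smul_eq_nsmul K, CharP.cast_eq_zero, zero_smul]
  haveI : Finite W := by
    apply AddCommGroup.finite_of_fg_isAddTorsion
    intro w
    rw [isOfFinAddOrder_iff_nsmul_eq_zero]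
    exact ⟨p, hp.out.pos, Subtype.ext (htor w)⟩
  have hinv : ∀ (u : P) (w : V), w ∈ W → ρ u w ∈ W := by
    intro u w hw
    induction hw using AddSubgroup.closure_induction with
    | mem x hx =>
      obtain ⟨v, rfl⟩ := hx
      apply AddSubgroup.subset_closure
      refine ⟨u * v, ?_⟩
      show ρ (u * v) t = ρ u (ρ v t)
      rw [map_mul]; rfl
    | zero => rw [map_zero]; exact W.zero_mem
    | add x y _ _ hx hy => rw [map_add]; exact W.add_mem hx hy
    | neg x _ hx => rw [map_neg]; exact W.neg_mem hx
  letI act : DistribMulAction P W := {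
    smul := fun u w => ⟨ρ u w, hinv u w w.2⟩
    one_smul := fun w => Subtype.ext (by show ρ 1 (w : V) = w; rw [map_one]; rfl)
    mul_smul := fun a b w => Subtype.ext (by show ρ (a * b) (w : V) = ρ a (ρ b w); rw [map_mul]; rfl)
    smul_zero := fun a => Subtype.ext (map_zero (ρ a))
    smul_add := fun a x y => Subtype.ext (map_add (ρ a) (x : V) y) }
  haveI : Nontrivial W := by
    refine ⟨⟨⟨t, AddSubgroup.subset_closure ⟨1, ?_⟩⟩, 0, ?_⟩⟩
    · show ρ 1 t = t
      rw [map_one]; rfl
    · intro h
      exact ht (congrArg Subtype.val h)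
  obtain ⟨w, hw0, hw⟩ := CfsgLib.LE11PGV.exists_fixed hP (W := W) (fun w => Subtype.ext (htor w))
  refine ⟨w, fun h => hw0 (Subtype.ext h), fun g => ?_⟩
  exact congrArg Subtype.val (hw g)

/-- invariant subspaces of every dimension -/
theorem exists_inv {p : ℕ} [hp : Fact p.Prime] {K : Type w} [Field K] [CharP K p] {P : Type u} [Group P] [Finite P]
    (hP : IsPGroup p P) {V : Type v} [AddCommGroup V] [Module K V] [FiniteDimensional K V] (ρ : P →* Module.End K V)
    (d : ℕ) (hd : d ≤ finrank K V) : ∃ U : Submodule K V, finrank K U = d ∧ ∀ g : P, ∀ x ∈ U, ρ g x ∈ U := by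
  induction d with
  | zero => exact ⟨⊥, finrank_bot K V, fun g x hx => by rw [Submodule.mem_bot] at hx ⊢; rw [hx, map_zero]⟩
  | succ d ih =>
    obtain ⟨U, hUd, hU⟩ := ih (by omega)
    haveI : Nontrivial (V ⧸ U) := by
      have h1 := Submodule.finrank_quotient_add_finrank U
      exact Module.finrank_pos_iff.mp (by omega : 0 < finrank K (V ⧸ U))
    obtain ⟨w, hw0, hw⟩ := fixed_vec hP (quo ρ U hU)
    obtain ⟨v, rfl⟩ := Submodule.Quotient.mk_surjective U w
    have hvU : v ∉ U := fun h => hw0 ((Submodule.Quotient.mk_eq_zero U).mpr h)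
    refine ⟨U ⊔ Submodule.span K {v}, ?_, ?_⟩
    · have hv0 : v ≠ 0 := fun h => hvU (h ▸ U.zero_mem)
      have h1 := Submodule.finrank_sup_add_finrank_inf_eq U (Submodule.span K {v})
      have h2 : U ⊓ Submodule.span K {v} = ⊥ := by
        rw [eq_bot_iff]
        rintro x ⟨hx1, hx2⟩
        obtain ⟨c, rfl⟩ := Submodule.mem_span_singleton.mp hx2
        by_cases hc : c = 0
        · rw [hc, zero_smul, Submodule.mem_bot]
        · exfalso
          apply hvU
          have := U.smul_mem c⁻¹ hx1
          rwa [smul_smul, inv_mul_cancel₀ hc, one_smul] at this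
      rw [h2, finrank_bot, add_zero, hUd, finrank_span_singleton hv0] at h1
      exact h1
    · intro g x hx
      obtain ⟨y, hy, z, hz, rfl⟩ := Submodule.mem_sup.mp hx
      obtain ⟨c, rfl⟩ := Submodule.mem_span_singleton.mp hz
      have h1 : ρ g v - v ∈ U := (Submodule.Quotient.eq U).mp (hw g)
      rw [map_add, map_smul]
      have h2 : ρ g v = (ρ g v - v) + v := by abel
      rw [h2, smul_add, ← add_assoc]
      apply Submodule.add_mem
      · exact Submodule.mem_sup_left (U.add_mem (hU g y hy) (U.smul_mem c h1))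
      · exact Submodule.mem_sup_right (Submodule.mem_span_singleton.mpr ⟨c, rfl⟩)

/-- the equal characteristic case -/
theorem main2 (p : ℕ) [hp : Fact p.Prime] (K : Type w) [Field K] [CharP K p] :
    ∀ (n : ℕ) (P : Type u) [Group P] [Finite P] (hP : IsPGroup p P) (V : Type v) [AddCommGroup V] [Module K V]
      [FiniteDimensional K V] (ρ : P →* Module.End K V), finrank K V = n → 1 ≤ n →
      ∀ g ∈ derivedSeries P (Nat.clog 2 n), ρ g = 1 := by
  intro n
  induction n using Nat.strong_induction_on with
  | _ n ih =>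
  intro P _ _ hP V _ _ _ ρ hn hn1 g hg
  rcases hn1.eq_or_lt with h1 | h1
  · -- dimension one
    haveI : Nontrivial V := Module.finrank_pos_iff.mp (by rw [hn]; exact hn1 : 0 < finrank K V)
    obtain ⟨v, hv0, hv⟩ := fixed_vec hP ρ
    ext x
    obtain ⟨c, rfl⟩ := (finrank_eq_one_iff_of_nonzero' v hv0).mp (by rw [hn]; exact h1.symm : finrank K V = 1) x
    rw [map_smul, hv g]; rfl
  · -- split
    obtain ⟨U, hUd, hU⟩ := exists_inv hP ρ (n / 2) (by omega)
    have hq : finrank K (V ⧸ U) = (n + 1) / 2 := by
      have h2 := Submodule.finrank_quotient_add_finrank U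
      omega
    have hclog : Nat.clog 2 n = Nat.clog 2 ((n + 1) / 2) + 1 := by
      rw [Nat.clog_of_two_le (by norm_num) (by omega)]
      rfl
    have htriv : ∀ a ∈ derivedSeries P (Nat.clog 2 ((n + 1) / 2)), (∀ x ∈ U, ρ a x = x) ∧ ∀ x, ρ a x - x ∈ U := by
      intro a ha
      have h2 := ih _ (by omega) P hP U (res ρ U hU) hUd (by omega) a (derivedSeries_antitone P (by
        apply Nat.clog_mono_right
        omega) ha)
      have h3 := ih _ (by omega) P hP (V ⧸ U) (quo ρ U hU) hq (by omega) a ha
      constructor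
      · intro x hx
        have := congrArg (fun f => ((f ⟨x, hx⟩ : U) : V)) h2
        exact this
      · intro x
        have h5 := congrArg (fun f => f (Submodule.Quotient.mk x)) h3
        have h6 : (Submodule.Quotient.mk (ρ a x) : V ⧸ U) = Submodule.Quotient.mk x := h5
        exact (Submodule.Quotient.eq U).mp h6
    rw [hclog, derivedSeries_succ] at hg
    have hker : ⁅derivedSeries P (Nat.clog 2 ((n + 1) / 2)), derivedSeries P (Nat.clog 2 ((n + 1) / 2))⁆ ≤ ρ.ker := by
      rw [Subgroup.commutator_le]
      intro a ha b hb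
      have hinv1 : ∀ a : P, ρ a * ρ a⁻¹ = 1 := fun a => by rw [← map_mul, mul_inv_cancel, map_one]
      have hab : ρ a * ρ b = ρ b * ρ a := by
        ext x
        obtain ⟨ha1, ha2⟩ := htriv a ha
        obtain ⟨hb1, hb2⟩ := htriv b hb
        show ρ a (ρ b x) = ρ b (ρ a x)
        have h2 : ρ a (ρ b x) = ρ a x + (ρ b x - x) := by
          have : ρ b x = x + (ρ b x - x) := by abel
          rw [this, map_add, ha1 _ (hb2 x)]
          abel
        have h3 : ρ b (ρ a x) = ρ b x + (ρ a x - x) := by
          have : ρ a x = x + (ρ a x - x) := by abel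
          rw [this, map_add, hb1 _ (ha2 x)]
          abel
        rw [h2, h3]; abel
      rw [MonoidHom.mem_ker, commutatorElement_def, map_mul, map_mul, map_mul, hab, mul_assoc (ρ b), hinv1 a, mul_one, hinv1 b]
    exact hker hg

end CfsgLib.FgDL
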