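import Cfsg.Agent.EqBase
import Cfsg.Agent.LibFS
import Cfsg.Agent.LibGalChar

/-!
# Frobenius–Schur indicator and odd multiplicity of the trivial character on a subgroup
-/

set_option autoImplicit false
set_option linter.style.haveILetI false
set_option linter.unusedSectionVars false
set_option linter.unusedVariables false

namespace CfsgLib.FgFS

open Cfsg CfsgLib.FS CfsgLib.CharBasic
open scoped ComplexConjugate

variable {G : Type*} [Group G] [Fintype G]

/-- an invariant invertible antisymmetric matrix forces even multiplicities of the trivial character -/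
theorem odd_false {n : ℕ} (ρ : Representation ℂ G (Fin n → ℂ)) {X : Matrix (Fin n) (Fin n) ℂ}
    (hX : IsInv ρ X) (hu : IsUnit X) (ht : X.transpose = -X) (Q : Subgroup G) [Fintype Q]
    (hodd : Odd (Module.finrank ℂ (Representation.invariants (ρ.comp Q.subtype)))) : False := by
  classical
  obtain ⟨u, hu⟩ := hu
  let Z : Matrix (Fin n) (Fin n) ℂ := (u⁻¹ : (Matrix (Fin n) (Fin n) ℂ)ˣ)
  have hXZ : X * Z = 1 := by rw [← hu]; exact u.mul_inv
  have hZX : Z * X = 1 := by rw [← hu]; exact u.inv_mul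
  have hZt : Z.transpose = -Z := by
    have h1 : Z.transpose * X.transpose = 1 := by rw [← Matrix.transpose_mul, hXZ, Matrix.transpose_one]
    rw [ht, Matrix.mul_neg] at h1
    have h2 : Z.transpose = Z.transpose * X * Z := by rw [mul_assoc, hXZ, mul_one]
    have h3 : Z.transpose * X = -1 := by rw [← h1, neg_neg]
    rw [h2, h3, neg_mul, one_mul]
  have hZinv : ∀ g, (mat ρ g).transpose * Z * mat ρ g = Z := by
    intro g
    have h1 := hX g⁻¹
    -- M⁻¹ X M⁻ᵀ = X
    have h2 : (mat ρ g).transpose * (mat ρ g⁻¹).transpose = 1 := by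
      rw [← Matrix.transpose_mul, mat_inv_mul, Matrix.transpose_one]
    have h3 : ((mat ρ g).transpose * Z * mat ρ g) * X = 1 := by
      have h4 : mat ρ g * X = X * (mat ρ g⁻¹).transpose := isInv_comm hX g
      rw [mul_assoc, h4, ← mul_assoc, mul_assoc _ Z X, hZX, mul_one]
      exact h2
    have h5 : ((mat ρ g).transpose * Z * mat ρ g) = ((mat ρ g).transpose * Z * mat ρ g) * X * Z := by
      rw [mul_assoc _ X Z, hXZ, mul_one]
    rw [h5, h3, one_mul]
  let S := Representation.invariants (ρ.comp Q.subtype)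
  let β : (Fin n → ℂ) → (Fin n → ℂ) → ℂ := fun v w => v ⬝ᵥ Z.mulVec w
  have hβinv : ∀ (g : G) v w, β (ρ g v) (ρ g w) = β v w := by
    intro g v w
    have h1 : ∀ v, ρ g v = (mat ρ g).mulVec v := by
      intro v
      rw [← toLin_mat, Matrix.toLin'_apply]
    change (ρ g v) ⬝ᵥ Z.mulVec (ρ g w) = v ⬝ᵥ Z.mulVec w
    rw [h1, h1, ← Matrix.vecMul_transpose, ← Matrix.dotProduct_mulVec, Matrix.mulVec_mulVec, Matrix.mulVec_mulVec,
      hZinv]
  have hβskew : ∀ v w, β v w = - β w v := by
    intro v w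
    change v ⬝ᵥ Z.mulVec w = - (w ⬝ᵥ Z.mulVec v)
    rw [Matrix.dotProduct_mulVec, ← Matrix.mulVec_transpose, hZt, Matrix.neg_mulVec, neg_dotProduct, dotProduct_comm]
  let b := Module.finBasis ℂ S
  let d := Module.finrank ℂ S
  let A : Matrix (Fin d) (Fin d) ℂ := Matrix.of fun i j => β (b i) (b j)
  have hAt : A.transpose = -A := by
    ext i j
    change β (b j) (b i) = - β (b i) (b j)
    exact hβskew _ _
  have hdet : A.det = 0 := by
    have h1 : A.det = (-1 : ℂ) ^ d * A.det := by
      conv_lhs => rw [← Matrix.det_transpose, hAt, Matrix.det_neg, Fintype.card_fin]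
    rw [Odd.neg_one_pow hodd] at h1
    linear_combination (1 / 2 : ℂ) * h1
  obtain ⟨c, hc0, hc⟩ := Matrix.exists_mulVec_eq_zero_iff.mpr hdet
  let w : S := ∑ j, c j • b j
  have hw0 : w ≠ 0 := by
    intro h
    apply hc0
    ext j
    exact (Fintype.linearIndependent_iff.mp b.linearIndependent c h) j
  have hbw : ∀ i, β (b i) (w : Fin n → ℂ) = 0 := by
    intro i
    have h1 := congrFun hc i
    change ∑ j, β (b i) (b j) * c j = 0 at h1
    rw [← h1]
    change (b i : Fin n → ℂ) ⬝ᵥ Z.mulVec (S.subtype (∑ j, c j • b j)) = _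
    rw [map_sum, Matrix.mulVec_sum, dotProduct_sum]
    refine Finset.sum_congr rfl fun j _ => ?_
    rw [map_smul, Matrix.mulVec_smul, dotProduct_smul, smul_eq_mul, mul_comm]
    rfl
  let lam : (Fin n → ℂ) →ₗ[ℂ] ℂ :=
    { toFun := fun v => β v w
      map_add' := fun v v' => add_dotProduct _ _ _
      map_smul' := fun c v => smul_dotProduct _ _ _ }
  have hlamS : lam.comp S.subtype = 0 := by
    apply b.ext
    intro i
    exact hbw i
  have hlam : ∀ v, lam v = 0 := by
    intro v
    have hQ0 : (Fintype.card Q : ℂ) ≠ 0 := by exact_mod_cast Fintype.card_ne_zero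
    have hwfix : ∀ q : Q, ρ (q : G) (w : Fin n → ℂ) = w := fun q => w.2 q
    have h1 : ∀ q : Q, lam (ρ (q : G) v) = lam v := by
      intro q
      change β (ρ (q : G) v) w = β v w
      conv_lhs => rw [← hwfix q]
      rw [hβinv]
    have h2 : (∑ q : Q, ρ (q : G) v) ∈ S := by
      intro q
      change ρ (q : G) (∑ q' : Q, ρ (q' : G) v) = _
      rw [map_sum]
      refine Fintype.sum_equiv (Equiv.mulLeft q) _ _ fun q' => ?_
      change ρ (q : G) (ρ (q' : G) v) = ρ ((q * q' : Q) : G) v
      rw [Subgroup.coe_mul, map_mul]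
      rfl
    have h3 : lam (∑ q : Q, ρ (q : G) v) = 0 := by
      have := LinearMap.congr_fun hlamS ⟨_, h2⟩
      exact this
    rw [map_sum, Finset.sum_congr rfl fun q _ => h1 q, Finset.sum_const, Finset.card_univ, nsmul_eq_mul] at h3
    exact (mul_eq_zero.mp h3).resolve_left hQ0
  have hZw : Z.mulVec (w : Fin n → ℂ) = 0 := by
    ext i
    have h1 := hlam (Pi.single i 1)
    change (Pi.single i (1 : ℂ) : Fin n → ℂ) ⬝ᵥ Z.mulVec w = 0 at h1
    rw [single_dotProduct, one_mul] at h1
    exact h1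
  apply hw0
  apply Subtype.ext
  have : (w : Fin n → ℂ) = X.mulVec (Z.mulVec w) := by
    rw [Matrix.mulVec_mulVec, hXZ, Matrix.one_mulVec]
  rw [this, hZw, Matrix.mulVec_zero]
  rfl

theorem fs_odd_mult {χ : G → ℂ} (h : IsIrrCharacter G χ) (hreal : ∀ g, (χ g).im = 0) (Q : Subgroup G) [Fintype Q]
    {d : ℕ} (hd : (Nat.card Q : ℂ)⁻¹ * ∑ q : Q, χ q = d) (hodd : Odd d) : fsInd χ = 1 := by
  have h0 := (fs_ne_zero_iff h).mpr hreal
  have hchar := irr_isCharacter h
  obtain ⟨n, ρ, hρ, rfl⟩ := h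
  have hG : (Nat.card G : ℂ) ≠ 0 := by exact_mod_cast Nat.card_pos.ne'
  by_cases hex : ∃ X : Matrix (Fin n) (Fin n) ℂ, IsInv ρ X ∧ X ≠ 0
  · obtain ⟨X, hX, hX0⟩ := hex
    obtain ⟨ε, hε, ht, hsum⟩ := sum_char_sq_of_isInv hX hX0
    rcases hε with rfl | rfl
    · rw [fsInd_eq, hsum, one_mul, inv_mul_cancel₀ hG]
    · exfalso
      refine odd_false ρ hX (isUnit_of_isInv hX hX0) (by rw [ht, neg_one_smul]) Q ?_
      haveI : Invertible (Nat.card Q : ℂ) := invertibleOfNonzero (by exact_mod_cast Nat.card_pos.ne')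
      let σ : Representation ℂ Q (Fin n → ℂ) := ρ.comp Q.subtype
      have h1 := Representation.card_inv_mul_sum_char_eq_finrank (ρ := σ)
      have h2 : (Nat.card Q : ℂ)⁻¹ * ∑ q : Q, σ.character q = (d : ℂ) := hd
      rw [h1] at h2
      have h3 : Module.finrank ℂ (Representation.invariants (ρ.comp Q.subtype)) = d := by exact_mod_cast h2
      rw [h3]
      exact hodd
  · exfalso
    push Not at hex
    have h1 : ∀ E, avg ρ E = 0 := fun E => hex _ (isInv_avg ρ E)
    apply h0
    rw [fsInd_eq, sum_char_sq]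
    simp [h1]

end CfsgLib.FgFS
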