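import Cfsg.Agent.LibFgFSa
import Cfsg.Agent.LibFSDef0
import Cfsg.Agent.LibExtend5

/-!
# Characters over a 2-defect zero character of a normal subgroup with 2-group quotient
-/

set_option autoImplicit false
set_option linter.style.haveILetI false
set_option linter.unusedSectionVars false
set_option linter.unusedVariables false

namespace CfsgLib.FgFS

open Cfsg CfsgLib.FS CfsgLib.CharBasic CfsgLib.Clifford
open scoped ComplexConjugate

theorem sum_eq {G : Type*} [Group G] [Fintype G] (N Q : Subgroup G) [Fintype N] [Fintype Q] (hQ : IsPGroup 2 Q)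
    (φ : IrrCharacter N) (hdef : 2 ^ (Nat.card N).factorization 2 ∣ charDegree (φ : N → ℂ)) :
    ∑ χ : IrrCharacter G, ((Nat.card Q : ℂ)⁻¹ * ∑ q : Q, (χ : G → ℂ) q) * classInner (fun n : N => (χ : G → ℂ) n) (φ : N → ℂ) =
      (Nat.card G : ℂ) * (φ : N → ℂ) 1 / ((Nat.card Q : ℂ) * (Nat.card N : ℂ)) := by
  classical
  have h1 : ∀ χ : IrrCharacter G, ((Nat.card Q : ℂ)⁻¹ * ∑ q : Q, (χ : G → ℂ) q) *
      classInner (fun n : N => (χ : G → ℂ) n) (φ : N → ℂ) = ((Nat.card Q : ℂ) * (Nat.card N : ℂ))⁻¹ *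
        ∑ q : Q, ∑ n : N, conj ((φ : N → ℂ) n) * ((χ : G → ℂ) q * conj ((χ : G → ℂ) (n : G)⁻¹)) := by
    intro χ
    unfold classInner
    rw [mul_inv, Finset.sum_congr rfl fun q _ => Finset.sum_congr rfl fun n _ => by
      rw [char_inv_eq_conj (irr_isCharacter χ.2), Complex.conj_conj]]
    rw [mul_mul_mul_comm, Finset.sum_mul_sum]
    congr 1
    refine Finset.sum_congr rfl fun q _ => Finset.sum_congr rfl fun n _ => ?_
    ring
  rw [Finset.sum_congr rfl fun χ _ => h1 χ, ← Finset.mul_sum, Finset.sum_comm]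
  have h2 : ∀ q : Q, ∑ χ : IrrCharacter G, ∑ n : N, conj ((φ : N → ℂ) n) * ((χ : G → ℂ) q * conj ((χ : G → ℂ) (n : G)⁻¹)) =
      ∑ n : N, if q = 1 ∧ n = 1 then (Nat.card G : ℂ) * (φ : N → ℂ) 1 else 0 := by
    intro q
    rw [Finset.sum_comm]
    refine Finset.sum_congr rfl fun n _ => ?_
    rw [← Finset.mul_sum, column_orthogonality]
    by_cases hq : q = 1
    · by_cases hn : n = 1
      · have e1 : (if q = 1 ∧ n = 1 then (Nat.card G : ℂ) * (φ : N → ℂ) 1 else 0) = (Nat.card G : ℂ) * (φ : N → ℂ) 1 :=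
          if_pos ⟨hq, hn⟩
        rw [e1, if_pos (by rw [hq, hn]; simp)]
        have h3 : Subgroup.centralizer ({((q : Q) : G)} : Set G) = ⊤ := by
          rw [eq_top_iff]
          intro x _
          rw [Subgroup.mem_centralizer_singleton_iff, hq]
          simp
        rw [h3, Subgroup.card_top, hn, ← char_inv_eq_conj (irr_isCharacter φ.2), inv_one, mul_comm]
      · have e1 : (if q = 1 ∧ n = 1 then (Nat.card G : ℂ) * (φ : N → ℂ) 1 else 0) = 0 :=
          if_neg (fun h => hn h.2)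
        have e2 : ¬ IsConj (q : G) (n : G)⁻¹ := by
          intro h
          rw [hq, Subgroup.coe_one, isConj_one_right] at h
          apply hn
          apply Subtype.ext
          exact inv_eq_one.mp h
        rw [e1, if_neg e2, mul_zero]
    · have e1 : (if q = 1 ∧ n = 1 then (Nat.card G : ℂ) * (φ : N → ℂ) 1 else 0) = 0 :=
          if_neg (fun h => hq h.1)
      rw [e1]
      by_cases hc : IsConj (q : G) (n : G)⁻¹
      · have h3 : (φ : N → ℂ) n = 0 := by
          apply CfsgLib.FSDef0.vanish Nat.prime_two hdef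
          have h4 : orderOf (n : G)⁻¹ = orderOf (q : G) := by
            obtain ⟨c, hc⟩ := isConj_iff.mp hc
            rw [← hc]
            exact (SemiconjBy.orderOf_eq c (by change c * _ = _ * c; group)).symm
          rw [orderOf_inv, Subgroup.orderOf_coe, Subgroup.orderOf_coe] at h4
          rw [h4]
          obtain ⟨k, hk⟩ := IsPGroup.iff_orderOf.mp hQ q
          rw [hk]
          apply dvd_pow_self
          rintro rfl
          rw [pow_zero, orderOf_eq_one_iff] at hk
          exact hq hk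
        rw [h3, map_zero, zero_mul]
      · rw [if_neg hc, mul_zero]
  rw [Finset.sum_congr rfl fun q _ => h2 q, Finset.sum_eq_single 1, Finset.sum_eq_single 1, if_pos ⟨rfl, rfl⟩,
    inv_mul_eq_div]
  · intro n _ hn
    rw [if_neg (fun h => hn h.2)]
  · intro h; exact absurd (Finset.mem_univ _) h
  · intro q _ hq
    apply Finset.sum_eq_zero
    intro n _
    rw [if_neg (fun h => hq h.1)]
  · intro h; exact absurd (Finset.mem_univ _) h

theorem main {G : Type*} [Group G] [Fintype G] (N : Subgroup G) [hN : N.Normal] [Fintype N] (h2 : IsPGroup 2 (G ⧸ N))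
    (φ : IrrCharacter N) (hdef : 2 ^ (Nat.card N).factorization 2 ∣ charDegree (φ : N → ℂ))
    (hconj : ∃ g : G, ∀ n n' : N, (n' : G) = g * (n : G) * g⁻¹ → (φ : N → ℂ) n' = conj ((φ : N → ℂ) n)) :
    ∃ χ : IrrCharacter G, fsInd (χ : G → ℂ) = 1 ∧ classInner (fun n : N => (χ : G → ℂ) n) (φ : N → ℂ) = 1 := by
  classical
  haveI : Fact (Nat.Prime 2) := ⟨Nat.prime_two⟩
  obtain ⟨Q⟩ := (inferInstance : Nonempty (Sylow 2 G))
  letI : Fintype (Q : Subgroup G) := Fintype.ofFinite _
  have hQ0 : (Nat.card (Q : Subgroup G) : ℂ) ≠ 0 := by exact_mod_cast Nat.card_pos.ne'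
  have hN0 : (Nat.card N : ℂ) ≠ 0 := by exact_mod_cast Nat.card_pos.ne'
  -- multiplicities
  have hA : ∀ χ : IrrCharacter G, ∃ a : ℕ, (Nat.card (Q : Subgroup G) : ℂ)⁻¹ * ∑ q : (Q : Subgroup G), (χ : G → ℂ) q = a := by
    intro χ
    obtain ⟨a, ha⟩ := char_mult (isCharacter_restrict (irr_isCharacter χ.2) (Q : Subgroup G))
      (isCharacter_one (G := (Q : Subgroup G)))
    refine ⟨a, ?_⟩
    rw [← ha]
    unfold classInner
    congr 1
    refine Finset.sum_congr rfl fun q _ => ?_
    rw [map_one, mul_one]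
  have hB : ∀ χ : IrrCharacter G, ∃ b : ℕ, classInner (fun n : N => (χ : G → ℂ) n) (φ : N → ℂ) = b := fun χ =>
    char_mult (isCharacter_restrict (irr_isCharacter χ.2) N) (irr_isCharacter φ.2)
  choose a ha using hA
  choose b hb using hB
  -- the total
  obtain ⟨f, hf⟩ := hdef
  have hfd : f * 2 ^ (Nat.card N).factorization 2 ∣ Nat.card N := by
    rw [mul_comm, ← hf]
    exact CfsgLib.CharInt2.charDegree_dvd_card φ.2
  have hfodd : Odd f := by
    rw [← Nat.not_even_iff_odd, even_iff_two_dvd]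
    rintro ⟨c, hc⟩
    have h3 : 2 ^ ((Nat.card N).factorization 2 + 1) ∣ Nat.card N := by
      refine dvd_trans ?_ hfd
      rw [hc, pow_succ]
      exact ⟨c, by ring⟩
    exact (Nat.pow_succ_factorization_not_dvd Nat.card_pos.ne' Nat.prime_two) h3
  obtain ⟨k, hk⟩ : ∃ k, N.index = 2 ^ k := by
    obtain ⟨k, hk⟩ := IsPGroup.iff_card.mp h2
    exact ⟨k, hk⟩
  have hQc : Nat.card (Q : Subgroup G) = 2 ^ k * 2 ^ (Nat.card N).factorization 2 := by
    rw [Q.card_eq_multiplicity, ← N.index_mul_card, Nat.factorization_mul N.index_ne_zero_of_finite Nat.card_pos.ne', hk,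
      Finsupp.add_apply, Nat.Prime.factorization_pow Nat.prime_two, Finsupp.single_eq_same, pow_add]
  have htot : (∑ χ : IrrCharacter G, ((a χ * b χ : ℕ) : ℂ)) = (f : ℂ) := by
    have h3 := sum_eq N (Q : Subgroup G) Q.isPGroup' φ ⟨f, hf⟩
    rw [Finset.sum_congr rfl fun χ _ => by rw [ha χ, hb χ, ← Nat.cast_mul]] at h3
    rw [h3, CfsgLib.CharInt.irr_one_eq_charDegree φ.2, hf, div_eq_iff (mul_ne_zero hQ0 hN0), hQc, ← N.index_mul_card, hk]
    push_cast
    ring
  have htotn : ∑ χ : IrrCharacter G, a χ * b χ = f := by exact_mod_cast htot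
  -- invariance under conjugation
  have haconj : ∀ χ, a (CfsgLib.GalChar.conjIrr χ) = a χ := by
    intro χ
    have h3 : ((a (CfsgLib.GalChar.conjIrr χ) : ℕ) : ℂ) = a χ := by
      rw [← ha, ← Complex.conj_natCast (a χ), ← ha, map_mul, map_inv₀, Complex.conj_natCast, map_sum]
      rfl
    exact_mod_cast h3
  have hbconj : ∀ χ, b (CfsgLib.GalChar.conjIrr χ) = b χ := by
    intro χ
    obtain ⟨g, hg⟩ := hconj
    have h3 : (fun n : N => conj ((φ : N → ℂ) n)) = cj hN g (φ : N → ℂ) := by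
      funext n
      rw [cj_apply]
      exact (hg n _ rfl).symm
    have h4 : ((b (CfsgLib.GalChar.conjIrr χ) : ℕ) : ℂ) = b χ := by
      rw [← hb, ← Complex.conj_natCast (b χ), ← hb, ← mult_cj hN (irr_classFun χ.2) (φ : N → ℂ) g, ← h3]
      unfold classInner
      rw [map_mul, map_inv₀, Complex.conj_natCast, map_sum]
      congr 1
      refine Finset.sum_congr rfl fun n _ => ?_
      rw [map_mul, Complex.conj_conj]
      rfl
    exact_mod_cast h4
  obtain ⟨χ, hreal, hodd⟩ : ∃ χ : IrrCharacter G, CfsgLib.GalChar.conjIrr χ = χ ∧ Odd (a χ * b χ) := by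
    by_contra hcon
    push Not at hcon
    have h3 : ∑ χ : IrrCharacter G, ((a χ * b χ : ℕ) : ZMod 2) = 0 := by
      apply Finset.sum_involution (fun χ _ => CfsgLib.GalChar.conjIrr χ)
      · intro χ _
        rw [haconj, hbconj, ← two_mul]
        have : (2 : ZMod 2) = 0 := rfl
        rw [this, zero_mul]
      · intro χ _ h0 h
        apply h0
        have h4 := hcon χ h
        rw [Nat.not_odd_iff_even, even_iff_two_dvd] at h4
        exact (ZMod.natCast_eq_zero_iff _ 2).mpr h4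
      · intro χ _
        apply Subtype.ext
        funext g
        rw [CfsgLib.GalChar.conjIrr_apply, CfsgLib.GalChar.conjIrr_apply, Complex.conj_conj]
      · intro χ _; exact Finset.mem_univ _
    have h4 : ((f : ℕ) : ZMod 2) = 0 := by rw [← htotn, Nat.cast_sum]; exact h3
    rw [ZMod.natCast_eq_zero_iff] at h4
    exact (Nat.not_even_iff_odd.mpr hfodd) (even_iff_two_dvd.mpr h4)
  rw [Nat.odd_mul] at hodd
  refine ⟨χ, fs_odd_mult χ.2 ((CfsgLib.GalChar.conjIrr_eq_iff χ).mp hreal) (Q : Subgroup G) (ha χ) hodd.1, ?_⟩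
  have hne : classInner (fun n : N => (χ : G → ℂ) n) (φ : N → ℂ) ≠ 0 := by
    rw [hb]
    exact_mod_cast hodd.2.pos.ne'
  obtain ⟨e, he1, he2⟩ := CfsgLib.Extend.ratio_dvd_index φ.2 χ.2 hne
  have h5 := clifford_degree hN χ.2 φ.2 hne
  rw [he1] at h5
  have hφ0 : (φ : N → ℂ) 1 ≠ 0 := irr_one_ne_zero φ.2
  have h6 := mul_right_cancel₀ hφ0 h5
  rw [hb] at h6 ⊢
  have h7 : e = b χ * (inertia hN (φ : N → ℂ)).index := by exact_mod_cast h6
  have h8 : b χ ∣ 2 ^ k := by rw [← hk]; exact (Dvd.intro _ h7.symm).trans he2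
  obtain ⟨j, -, hj⟩ := (Nat.dvd_prime_pow Nat.prime_two).mp h8
  rcases j with _ | j
  · rw [hj]; simp
  · exfalso
    rw [hj] at hodd
    exact (Nat.not_even_iff_odd.mpr hodd.2) (by rw [pow_succ]; exact even_two.mul_left _)

end CfsgLib.FgFS
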