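import Mathlib
import Cfsg.Agent.S0039
import Cfsg.Agent.LibFPF2
import Cfsg.Agent.LibFgFpf2
import Cfsg.Agent.LibLEF
import Cfsg.Agent.LibBGCore
import Cfsg.Agent.LibSolvFitting

/-!
# Solvable groups with a disconnected prime graph
-/

set_option autoImplicit false
set_option linter.style.haveILetI false
set_option linter.unusedSectionVars false
set_option linter.unusedVariables false

namespace CfsgLib.FgGK

open Cfsg CfsgLib.BGPi CfsgLib.FPF1
open scoped Pointwise

variable {G : Type*} [Group G]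

/-- no element of order `a b` with `a` in `A` and `b` outside -/
def Sep (A : Set ℕ) (G : Type*) [Group G] : Prop :=
  ∀ a b : ℕ, a.Prime → b.Prime → a ∈ A → b ∉ A → ∀ g : G, orderOf g ≠ a * b

theorem Sep.compl {A : Set ℕ} (h : Sep A G) : Sep Aᶜ G := by
  intro a b ha hb haA hbA g hg
  exact h b a hb ha (not_not.mp hbA) haA g (by rw [hg, mul_comm])

theorem Sep.sub {A : Set ℕ} (h : Sep A G) (K : Subgroup G) : Sep A K := by
  intro a b ha hb haA hbA g hg
  exact h a b ha hb haA hbA g (by rw [Subgroup.orderOf_coe]; exact hg)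

theorem Sep.quot [Finite G] {A : Set ℕ} (h : Sep A G) (N : Subgroup G) [N.Normal] : Sep A (G ⧸ N) := by
  intro a b ha hb haA hbA g hg
  obtain ⟨x, rfl⟩ := QuotientGroup.mk'_surjective N g
  have h1 : a * b ∣ orderOf x := by
    rw [← hg]; exact orderOf_map_dvd (QuotientGroup.mk' N) x
  refine h a b ha hb haA hbA (x ^ (orderOf x / (a * b))) ?_
  exact orderOf_pow_orderOf_div (orderOf_pos x).ne' h1

theorem Sep.comm [Finite G] {A : Set ℕ} (h : Sep A G) {x y : G} (hxy : x * y = y * x) {a b : ℕ} (ha : a.Prime)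
    (hb : b.Prime) (haA : a ∈ A) (hbA : b ∉ A) (hax : a ∣ orderOf x) (hby : b ∣ orderOf y) : False := by
  obtain ⟨g, hg⟩ := CfsgLib.FgFpf.mul_order ha hb (by rintro rfl; exact hbA haA) hxy hax hby
  exact h a b ha hb haA hbA g hg

theorem Sep.fpf [Finite G] {A : Set ℕ} (h : Sep A G) {M V : Subgroup G} (hM : IsPi Aᶜ M) (hV : IsPi A V) : FPF M V := by
  intro m hm hm1
  rw [eq_bot_iff]
  intro v hvv
  obtain ⟨hv, hvc⟩ := Subgroup.mem_inf.mp hvv
  rw [Subgroup.mem_bot]
  by_contra hv1
  rw [Subgroup.mem_centralizer_singleton_iff] at hvc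
  obtain ⟨a, ha, hav⟩ := Nat.exists_prime_and_dvd (n := orderOf v) (by rwa [Ne, orderOf_eq_one_iff])
  obtain ⟨b, hb, hbm⟩ := Nat.exists_prime_and_dvd (n := orderOf m) (by rwa [Ne, orderOf_eq_one_iff])
  exact h.comm hvc ha hb (hV a ha (hav.trans (Subgroup.orderOf_dvd_natCard V hv)))
    (hM b hb (hbm.trans (Subgroup.orderOf_dvd_natCard M hm))) hav hbm

/-- the kernel set of a Frobenius complement with a normal complement -/
theorem kernel_eq [Finite G] (K H : Subgroup G) [hK : K.Normal] (hc : Subgroup.IsComplement' K H)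
    (hH : Cfsg.IsFrobeniusComplement H) : Cfsg.frobeniusKernel H = (K : Set G) := by
  have h1 := CfsgLib.Frob6.card_kernel H hH.2.2
  have h2 : (K : Set G) ⊆ Cfsg.frobeniusKernel H := by
    intro k hk
    by_cases hk1 : k = 1
    · left; exact hk1
    · right
      intro g hg
      rw [CfsgLib.Frob6.mem_conj] at hg
      have h3 : g⁻¹ * k * g ∈ K := by
        have := hK.conj_mem k hk g⁻¹
        simpa using this
      have h4 : g⁻¹ * k * g ∈ K ⊓ H := ⟨h3, hg⟩
      rw [disjoint_iff.mp hc.disjoint, Subgroup.mem_bot] at h4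
      apply hk1
      have h5 : k = g * (g⁻¹ * k * g) * g⁻¹ := by group
      rw [h5, h4]; group
  symm
  apply Set.eq_of_subset_of_ncard_le h2 _ (Set.toFinite _)
  have h3 : Nat.card K = H.index := by
    have h4 := hc.card_mul_card
    have h5 := H.index_mul_card
    have h6 : 0 < Nat.card H := Nat.card_pos
    exact Nat.eq_of_mul_eq_mul_right h6 (h4.trans h5.symm)
  rw [← Nat.card_coe_set_eq, ← Nat.card_coe_set_eq]
  rw [h1, ← h3]
  rfl

/-- a Schur–Zassenhaus complement acting fixed point freely is a Frobenius complement -/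
theorem frob_of_sep [Finite G] {A : Set ℕ} (h : Sep A G) (N : Subgroup G) [N.Normal] (hN1 : N ≠ ⊥) (hN : IsPi A N)
    (hidx : ∀ p : ℕ, p.Prime → p ∣ N.index → p ∉ A) (hNt : N ≠ ⊤) :
    ∃ C : Subgroup G, Subgroup.IsComplement' N C ∧ Cfsg.IsFrobeniusComplement C ∧ IsPi Aᶜ C ∧
      Cfsg.frobeniusKernel C = (N : Set G) := by
  have hcop : Nat.Coprime (Nat.card N) N.index :=
    hN.coprime_of_dvd (fun p hp hpA hd => hidx p hp hd hpA)
  obtain ⟨C, hC⟩ := Subgroup.exists_right_complement'_of_coprime hcop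
  have hcC : Nat.card C = N.index := by
    have h4 := hC.card_mul_card
    have h5 := N.card_mul_index
    have h6 : 0 < Nat.card N := Nat.card_pos
    exact Nat.eq_of_mul_eq_mul_left h6 (h4.trans h5.symm)
  have hCA : IsPi Aᶜ C := by
    intro p hp hd
    rw [hcC] at hd
    exact hidx p hp hd
  have hC1 : C ≠ ⊥ := by
    rintro rfl
    rw [Subgroup.card_bot] at hcC
    exact hNt (Subgroup.index_eq_one.mp hcC.symm)
  have hF : Cfsg.IsFrobeniusComplement C :=
    (Cfsg.Agent.S0039.result N C hC hN1 hC1).mpr (h.fpf hCA hN)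
  exact ⟨C, hC, hF, hCA, kernel_eq N C hC hF⟩

end CfsgLib.FgGK
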