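import Cfsg.Agent.LibFgGK

/-!
# Solvable groups with a disconnected prime graph, part 2
-/

set_option autoImplicit false
set_option linter.style.haveILetI false
set_option linter.unusedSectionVars false
set_option linter.unusedVariables false

namespace CfsgLib.FgGK

open Cfsg CfsgLib.BGPi CfsgLib.FPF1
open scoped Pointwise

variable {G : Type*} [Group G]

theorem cyclic_of_fpf [Finite G] {C V : Subgroup G} (h : FPF C V) (hCV : C ≤ Subgroup.normalizer (V : Set G))
    (hV : V ≠ ⊥) (hn : Group.IsNilpotent C) (hodd : ¬ 2 ∣ Nat.card C) : IsCyclic C := by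
  have hZ : IsZGroup C := by
    rw [isZGroup_iff]
    intro p hp P
    have : Fact p.Prime := ⟨hp⟩
    have hle : (P : Subgroup C).map C.subtype ≤ C := Subgroup.map_subtype_le _
    have hPp : IsPGroup p ((P : Subgroup C).map C.subtype) := P.isPGroup'.map _
    by_cases hp2 : p = 2
    · subst hp2
      have hb : (P : Subgroup C) = ⊥ := by
        rcases P.isPGroup'.card_eq_or_dvd with h2 | h2
        · exact Subgroup.card_eq_one.mp h2
        · exact absurd (h2.trans (Subgroup.card_subgroup_dvd_card _)) hodd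
      have : Subsingleton (P : Subgroup C) := by rw [hb]; infer_instance
      infer_instance
    · have h1 : IsCyclic ((P : Subgroup C).map C.subtype) :=
        (h.mono hle).pgroup_cyclic (hle.trans hCV) hV hp hp2 hPp
      exact isCyclic_of_injective
        ((P : Subgroup C).equivMapOfInjective C.subtype C.subtype_injective).toMonoidHom
        ((P : Subgroup C).equivMapOfInjective C.subtype C.subtype_injective).injective
  infer_instance

/-- the action on a normal cyclic subgroup is commutative -/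
theorem conj_comm_cyclic [Finite G] {F : Subgroup G} [F.Normal] (hF : IsCyclic F) (g h : G) {v : G} (hv : v ∈ F) :
    g * (h * v * h⁻¹) * g⁻¹ = h * (g * v * g⁻¹) * h⁻¹ := by
  obtain ⟨m, hm⟩ := MonoidHom.map_cyclic (G := F) (CfsgLib.FgFpf.cj F g)
  obtain ⟨n, hn⟩ := MonoidHom.map_cyclic (G := F) (CfsgLib.FgFpf.cj F h)
  have e1 : ∀ w ∈ F, g * w * g⁻¹ = w ^ m := by
    intro w hw
    have := congrArg Subtype.val (hm ⟨w, hw⟩)
    rw [CfsgLib.FgFpf.coe_cj] at this
    exact this
  have e2 : ∀ w ∈ F, h * w * h⁻¹ = w ^ n := by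
    intro w hw
    have := congrArg Subtype.val (hn ⟨w, hw⟩)
    rw [CfsgLib.FgFpf.coe_cj] at this
    exact this
  rw [e2 v hv, e1 _ (F.zpow_mem hv n), e1 v hv, e2 _ (F.zpow_mem hv m), ← zpow_mul, ← zpow_mul, mul_comm]

theorem comm_mem_centralizer [Finite G] {F : Subgroup G} [F.Normal] (hF : IsCyclic F) (x y : G) :
    y⁻¹ * x * y * x⁻¹ ∈ Subgroup.centralizer (F : Set G) := by
  rw [Subgroup.mem_centralizer_iff]
  intro v hv
  -- v * c = c * v ; i.e. c v c⁻¹ = v
  have hF' : F.Normal := inferInstance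
  have h1 : ∀ w ∈ F, x * (y * w * y⁻¹) * x⁻¹ = y * (x * w * x⁻¹) * y⁻¹ := fun w hw => conj_comm_cyclic hF x y hw
  -- take w = x⁻¹ v x
  have hw : x⁻¹ * v * x ∈ F := by
    have := hF'.conj_mem v hv x⁻¹
    simpa using this
  have h2 := h1 _ hw
  have h3 : y * (x * (x⁻¹ * v * x) * x⁻¹) * y⁻¹ = y * v * y⁻¹ := by group
  rw [h3] at h2
  -- x y x⁻¹ v x y⁻¹ x⁻¹ = y v y⁻¹
  have h4 : v * (y⁻¹ * x * y * x⁻¹) = y⁻¹ * (y * v * y⁻¹) * (x * y * x⁻¹) := by group
  rw [h4, ← h2]
  group

/-- the upper part of the two-Frobenius structure -/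
theorem upper [Finite G] {τ : Set ℕ} (h : Sep τ G) {F : Subgroup G} [hFn : F.Normal] (hF : IsCyclic F) (hFτ : IsPi τᶜ F)
    (hF1 : F ≠ ⊥) (hcent : Subgroup.centralizer (F : Set G) ≤ F) {x : G} {a : ℕ} (ha : a.Prime) (haτ : a ∈ τ)
    (hx : orderOf x = a) :
    ∃ C : Subgroup G, Cfsg.IsFrobeniusComplement C ∧ Cfsg.frobeniusKernel C = (F : Set G) := by
  have hfix : ∀ v ∈ F, x * v = v * x → v = 1 := by
    intro v hv hc
    by_contra hv1
    obtain ⟨b, hb, hbv⟩ := Nat.exists_prime_and_dvd (n := orderOf v) (by rwa [Ne, orderOf_eq_one_iff])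
    exact h.comm hc ha hb haτ (hFτ b hb (hbv.trans (Subgroup.orderOf_dvd_natCard F hv))) (by rw [hx]) hbv
  have hxF : x ∉ F := by
    intro hxF
    exact hFτ a ha (by rw [← hx]; exact Subgroup.orderOf_dvd_natCard F hxF) haτ
  have hidx : ∀ b : ℕ, b.Prime → b ∣ F.index → b ∉ τᶜ := by
    intro b hb hbd hbτ
    have : Fact b.Prime := ⟨hb⟩
    obtain ⟨P⟩ := (inferInstance : Nonempty (Sylow b G))
    have hPF : ¬ (P : Subgroup G) ≤ F := by
      intro hle
      exact P.not_dvd_index (hbd.trans (Subgroup.index_dvd_of_le hle))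
    obtain ⟨y, hyP, hyF⟩ := SetLike.not_le_iff_exists.mp hPF
    obtain ⟨k, hk, hkc⟩ := CfsgLib.FgFpf.exists_conj (N := F) hfix (hcent (comm_mem_centralizer hF x y))
    have hz : x * (y * k⁻¹) = (y * k⁻¹) * x := by
      have e1 : x * y = y * (y⁻¹ * x * y * x⁻¹) * x := by group
      rw [← mul_assoc, e1, hkc]
      group
    have hzF : y * k⁻¹ ∉ F := by
      intro hh
      exact hyF (by have := F.mul_mem hh hk; rwa [inv_mul_cancel_right] at this)
    have hz1 : y * k⁻¹ ≠ 1 := fun hh => hzF (hh ▸ F.one_mem)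
    have hPτ : IsPi τᶜ (P : Subgroup G) := by
      intro p hp hd
      obtain ⟨n, hn⟩ := IsPGroup.iff_card.mp P.isPGroup'
      rw [hn] at hd
      rw [(Nat.prime_dvd_prime_iff_eq hp hb).mp (hp.dvd_of_dvd_pow hd)]
      exact hbτ
    have hsup : IsPi τᶜ ((P : Subgroup G) ⊔ F) := hPτ.sup hFτ Subgroup.le_normalizer_of_normal
    have hzm : y * k⁻¹ ∈ (P : Subgroup G) ⊔ F := Subgroup.mul_mem_sup hyP (F.inv_mem hk)
    obtain ⟨c, hc, hcz⟩ := Nat.exists_prime_and_dvd (n := orderOf (y * k⁻¹)) (by rwa [Ne, orderOf_eq_one_iff])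
    exact h.comm hz ha hc haτ (hsup c hc (hcz.trans (Subgroup.orderOf_dvd_natCard _ hzm))) (by rw [hx]) hcz
  obtain ⟨C, -, hC, -, hk⟩ := frob_of_sep h.compl F hF1 hFτ hidx (by rintro rfl; exact hxF (Subgroup.mem_top x))
  exact ⟨C, hC, hk⟩

theorem case_two [Finite G] [Group.IsSolvable G] {τ : Set ℕ} (h : Sep τ G) (N : Subgroup G) [hNn : N.Normal]
    (hN1 : N ≠ ⊥) (hN : IsPi τ N) (hO : ∀ M : Subgroup (G ⧸ N), M.Normal → IsPi τ M → M = ⊥)
    {x : G ⧸ N} {a : ℕ} (ha : a.Prime) (haτ : a ∈ τ) (hx : orderOf x = a) :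
    ∃ K : Subgroup G, K.Normal ∧ N < K ∧
      (∃ C : Subgroup ↥K, Cfsg.IsFrobeniusComplement C ∧ Cfsg.frobeniusKernel C = (N.subgroupOf K : Set ↥K)) ∧
      (∃ C : Subgroup (G ⧸ N), Cfsg.IsFrobeniusComplement C ∧
        Cfsg.frobeniusKernel C = (K.map (QuotientGroup.mk' N) : Set (G ⧸ N))) := by
  have hx1 : x ≠ 1 := by rintro rfl; rw [orderOf_one] at hx; exact ha.one_lt.ne hx
  obtain ⟨F, hFd⟩ : ∃ F, F = Cfsg.fittingSubgroup (G ⧸ N) := ⟨_, rfl⟩
  have hFn : F.Normal := by rw [hFd]; exact CfsgLib.SolvFitting.fitting_normal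
  have hFnil : Group.IsNilpotent F := by rw [hFd]; exact CfsgLib.SolvFitting.fitting_isNilpotent
  have hsQ : Group.IsSolvable (G ⧸ N) := inferInstance
  have hcent : Subgroup.centralizer (F : Set (G ⧸ N)) ≤ F := by
    rw [hFd]; exact CfsgLib.SolvFitting.centralizer_fitting_le
  have hFτ : IsPi τᶜ F := by
    intro p hp hd hpτ
    have : Fact p.Prime := ⟨hp⟩
    have h1 : pCore p (G ⧸ N) = ⊥ := by
      apply hO _ (CfsgLib.SolvFitting.pCore_normal p)
      intro q hq hqd
      obtain ⟨n, hn⟩ := IsPGroup.iff_card.mp (CfsgLib.SolvFitting.pCore_isPGroup (G := G ⧸ N) p)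
      rw [hn] at hqd
      rw [(Nat.prime_dvd_prime_iff_eq hq hp).mp (hq.dvd_of_dvd_pow hqd)]
      exact hpτ
    have h2 := CfsgLib.LE.coprime_card_fitting h1
    rw [← hFd] at h2
    exact hp.one_lt.ne' (Nat.eq_one_of_dvd_coprimes h2 hd dvd_rfl)
  have hF1 : F ≠ ⊥ := by
    rintro hb
    rw [hb] at hcent
    apply hx1
    rw [← Subgroup.mem_bot]
    apply hcent
    rw [Subgroup.mem_centralizer_iff]
    intro v hv
    rw [SetLike.mem_coe, Subgroup.mem_bot] at hv
    rw [hv, one_mul, mul_one]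
  obtain ⟨K, hKd⟩ : ∃ K, K = F.comap (QuotientGroup.mk' N) := ⟨_, rfl⟩
  have hKn : K.Normal := by rw [hKd]; infer_instance
  have hKF : K.map (QuotientGroup.mk' N) = F := by
    rw [hKd, Subgroup.map_comap_eq_self_of_surjective (QuotientGroup.mk'_surjective N)]
  have hNK : N ≤ K := by
    rw [hKd]
    intro n hn
    rw [Subgroup.mem_comap]
    have : QuotientGroup.mk' N n = 1 := (QuotientGroup.eq_one_iff n).mpr hn
    rw [this]
    exact F.one_mem
  have hidx : (N.subgroupOf K).index = Nat.card F := by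
    have h1 : N.relIndex K = (⊥ : Subgroup (G ⧸ N)).relIndex (K.map (QuotientGroup.mk' N)) := by
      rw [← Subgroup.relIndex_comap, MonoidHom.comap_bot, QuotientGroup.ker_mk']
    rw [← Subgroup.relIndex, h1, hKF, Subgroup.relIndex_bot_left]
  have hNKlt : N < K := by
    refine lt_of_le_of_ne hNK ?_
    rintro rfl
    apply hF1
    rw [← hKF, QuotientGroup.map_mk'_self]
  obtain ⟨C, hCc, hCF, hCτ, hCk⟩ := frob_of_sep (h.sub K) (N.subgroupOf K)
    (by
      intro hb
      rw [Subgroup.subgroupOf_eq_bot, disjoint_iff, inf_of_le_left hNK] at hb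
      exact hN1 hb)
    (by
      intro p hp hd
      rw [Nat.card_congr (Subgroup.subgroupOfEquivOfLe hNK).toEquiv] at hd
      exact hN p hp hd)
    (by
      intro p hp hd
      rw [hidx] at hd
      exact hFτ p hp hd)
    (by
      intro ht
      rw [Subgroup.subgroupOf_eq_top] at ht
      exact hNKlt.not_ge ht)
  -- `C ≃ F`
  have hcC : Nat.card C = Nat.card F := by
    rw [← hidx]
    have h4 := hCc.card_mul_card
    have h5 := (N.subgroupOf K).card_mul_index
    have h6 : 0 < Nat.card (N.subgroupOf K) := Nat.card_pos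
    exact Nat.eq_of_mul_eq_mul_left h6 (h4.trans h5.symm)
  let f : C →* F := ((QuotientGroup.mk' N).comp (K.subtype.comp C.subtype)).codRestrict F (fun c => by
    have h2 : QuotientGroup.mk' N ((c : K) : G) ∈ K.map (QuotientGroup.mk' N) := Subgroup.mem_map_of_mem _ (c : K).2
    rw [hKF] at h2
    exact h2)
  have hfinj : Function.Injective f := by
    rw [injective_iff_map_eq_one]
    intro c hc
    have h1 : QuotientGroup.mk' N ((c : K) : G) = 1 := congrArg Subtype.val hc
    have h2 : ((c : K) : G) ∈ N := (QuotientGroup.eq_one_iff _).mp h1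
    have h3 : (c : K) ∈ N.subgroupOf K ⊓ C := Subgroup.mem_inf.mpr ⟨Subgroup.mem_subgroupOf.mpr h2, c.2⟩
    rw [disjoint_iff.mp hCc.disjoint, Subgroup.mem_bot] at h3
    exact Subtype.ext h3
  have hfb : Function.Bijective f := by
    rw [Nat.bijective_iff_injective_and_card]
    exact ⟨hfinj, hcC⟩
  let e : C ≃* F := MulEquiv.ofBijective f hfb
  have hfpf : FPF C (N.subgroupOf K) := (h.sub K).fpf hCτ (by
      intro p hp hd
      rw [Nat.card_congr (Subgroup.subgroupOfEquivOfLe hNK).toEquiv] at hd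
      exact hN p hp hd)
  have hVn : C ≤ Subgroup.normalizer (N.subgroupOf K : Set K) := Subgroup.le_normalizer_of_normal
  have hV1 : N.subgroupOf K ≠ ⊥ := by
      intro hb
      rw [Subgroup.subgroupOf_eq_bot, disjoint_iff, inf_of_le_left hNK] at hb
      exact hN1 hb
  have hodd : ¬ 2 ∣ Nat.card F := by
    intro h2
    obtain ⟨⟨s, hs, hs2, huniq, -⟩, -⟩ := hfpf.even hVn hV1 (by rw [hcC]; exact h2)
    have hsF : orderOf (e ⟨s, hs⟩ : F) = 2 := by
      rw [MulEquiv.orderOf_eq, ← hs2, Subgroup.orderOf_mk]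
    have hu : ∀ t : F, orderOf t = 2 → t = e ⟨s, hs⟩ := by
      intro t ht
      have h3 : orderOf (e.symm t) = 2 := by rw [MulEquiv.orderOf_eq]; exact ht
      have h4 := huniq (e.symm t : C) (e.symm t).2 (by rw [← h3, Subgroup.orderOf_coe])
      have h5 : e.symm t = ⟨s, hs⟩ := Subtype.ext h4
      rw [← h5, MulEquiv.apply_symm_apply]
    have h6 : x * ((e ⟨s, hs⟩ : F) : G ⧸ N) * x⁻¹ = ((e ⟨s, hs⟩ : F) : G ⧸ N) := by
      have h7 := hu ⟨x * ((e ⟨s, hs⟩ : F) : G ⧸ N) * x⁻¹, hFn.conj_mem _ (e ⟨s, hs⟩).2 x⟩ (by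
        rw [Subgroup.orderOf_mk]
        rw [← hsF, ← Subgroup.orderOf_coe]
        exact (SemiconjBy.orderOf_eq x (by
          change x * _ = _ * x
          group)).symm)
      exact congrArg Subtype.val h7
    have h8 : x * ((e ⟨s, hs⟩ : F) : G ⧸ N) = ((e ⟨s, hs⟩ : F) : G ⧸ N) * x := by
      rw [mul_inv_eq_iff_eq_mul] at h6
      exact h6
    exact (h.quot N).comm h8 ha Nat.prime_two haτ (hFτ 2 Nat.prime_two h2) (by rw [hx])
      (by rw [Subgroup.orderOf_coe, hsF])
  have hCnil : Group.IsNilpotent C := (Group.isNilpotent_congr e).mpr hFnil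
  have hCcyc : IsCyclic C := cyclic_of_fpf hfpf hVn hV1 hCnil (by rw [hcC]; exact hodd)
  have hFcyc : IsCyclic F := isCyclic_of_surjective e.toMonoidHom e.surjective
  obtain ⟨C2, hC2, hk2⟩ := upper (h.quot N) hFcyc hFτ hF1 hcent ha haτ hx
  exact ⟨K, hKn, hNKlt, ⟨C, hCF, hCk⟩, ⟨C2, hC2, by rw [hKF]; exact hk2⟩⟩

theorem main [Finite G] [Group.IsSolvable G] {τ : Set ℕ} (h : Sep τ G) (hne : piCore τ G ≠ ⊥)
    {b : ℕ} (hb : b.Prime) (hbτ : b ∉ τ) (hbG : b ∣ Nat.card G) :
    (∃ C : Subgroup G, Cfsg.IsFrobeniusComplement C) ∨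
    (∃ (H K : Subgroup G) (_ : H.Normal), K.Normal ∧ H < K ∧
      (∃ C : Subgroup ↥K, Cfsg.IsFrobeniusComplement C ∧ Cfsg.frobeniusKernel C = (H.subgroupOf K : Set ↥K)) ∧
      (∃ C : Subgroup (G ⧸ H), Cfsg.IsFrobeniusComplement C ∧
        Cfsg.frobeniusKernel C = (K.map (QuotientGroup.mk' H) : Set (G ⧸ H)))) := by
  obtain ⟨H, hHd⟩ : ∃ H, H = piCore τ G := ⟨_, rfl⟩
  have hHn : H.Normal := by rw [hHd]; infer_instance
  have hHτ : IsPi τ H := by rw [hHd]; exact isPi_piCore τ
  have hH1 : H ≠ ⊥ := by rw [hHd]; exact hne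
  by_cases hc : ∀ p : ℕ, p.Prime → p ∣ H.index → p ∉ τ
  · left
    obtain ⟨C, -, hC, -⟩ := frob_of_sep h H hH1 hHτ hc (by
      rintro rfl
      exact hbτ (hHτ b hb (by rw [Subgroup.card_top]; exact hbG)))
    exact ⟨C, hC⟩
  · right
    push Not at hc
    obtain ⟨a, ha, had, haτ⟩ := hc
    have : Fact a.Prime := ⟨ha⟩
    obtain ⟨x, hx⟩ := exists_prime_orderOf_dvd_card' (G := G ⧸ H) a had
    have hO : ∀ M : Subgroup (G ⧸ H), M.Normal → IsPi τ M → M = ⊥ := by
      intro M hM hMτ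
      have h1 : M.comap (QuotientGroup.mk' H) ≤ H := by
        refine le_trans (le_piCore (π := τ) ?_ ?_) hHd.symm.le
        · infer_instance
        · intro p hp hd
          have hHL : H ≤ M.comap (QuotientGroup.mk' H) := by
            intro n hn
            rw [Subgroup.mem_comap]
            have : QuotientGroup.mk' H n = 1 := (QuotientGroup.eq_one_iff n).mpr hn
            rw [this]
            exact M.one_mem
          have h2 : H.relIndex (M.comap (QuotientGroup.mk' H)) = Nat.card M := by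
            have h1 : H.relIndex (M.comap (QuotientGroup.mk' H)) =
                (⊥ : Subgroup (G ⧸ H)).relIndex ((M.comap (QuotientGroup.mk' H)).map (QuotientGroup.mk' H)) := by
              rw [← Subgroup.relIndex_comap, MonoidHom.comap_bot, QuotientGroup.ker_mk']
            rw [h1, Subgroup.map_comap_eq_self_of_surjective (QuotientGroup.mk'_surjective H),
              Subgroup.relIndex_bot_left]
          have h3 := Subgroup.relIndex_mul_relIndex ⊥ H (M.comap (QuotientGroup.mk' H)) bot_le hHL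
          rw [Subgroup.relIndex_bot_left, Subgroup.relIndex_bot_left, h2] at h3
          rw [← h3] at hd
          rcases (hp.dvd_mul).mp hd with h4 | h4
          · exact hHτ p hp h4
          · exact hMτ p hp h4
      rw [eq_bot_iff]
      intro m hm
      obtain ⟨g, rfl⟩ := QuotientGroup.mk'_surjective H m
      rw [Subgroup.mem_bot]
      exact (QuotientGroup.eq_one_iff g).mpr (h1 hm)
    obtain ⟨K, h1, h2, h3, h4⟩ := case_two h H hH1 hHτ hO ha haτ hx
    exact ⟨H, K, hHn, h1, h2, h3, h4⟩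

end CfsgLib.FgGK
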