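import Mathlib
import Cfsg.Agent.LibCycNorm
import Cfsg.Agent.LibExtraH28
import Cfsg.Agent.LibFgDL

set_option autoImplicit false
set_option linter.all false

/-! Number of homomorphisms of a `2`-group to `{1,-1}`. -/

open Module
open scoped commutatorElement

namespace CfsgLib.FgHom

universe u v w

/-- number of homomorphisms to `{1, -1}` -/
noncomputable def h (P : Type u) [Group P] : ℕ := Nat.card (P →* ℤˣ)

instance fin_hom (P : Type u) [Group P] [Finite P] : Finite (P →* ℤˣ) :=
  Finite.of_injective (fun f => (f : P → ℤˣ)) DFunLike.coe_injective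

theorem h_ext {P : Type u} [Group P] [Finite P] (N : Subgroup P) [N.Normal] : h P ≤ h N * h (P ⧸ N) := by
  let φ : (P →* ℤˣ) →* (N →* ℤˣ) := MonoidHom.compHom' N.subtype
  have h1 := Subgroup.card_mul_index φ.ker
  rw [Subgroup.index_ker] at h1
  have h2 : Nat.card φ.range ≤ Nat.card (N →* ℤˣ) := Subgroup.card_le_card_group _
  have h3 : Nat.card φ.ker ≤ Nat.card (P ⧸ N →* ℤˣ) := by
    have hk : ∀ f : φ.ker, N ≤ f.1.ker := by
      rintro ⟨f, hf⟩ n hn
      have h4 : f.comp N.subtype = 1 := hf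
      exact DFunLike.congr_fun h4 ⟨n, hn⟩
    refine Nat.card_le_card_of_injective (fun f : φ.ker => QuotientGroup.lift N f.1 (hk f)) ?_
    intro f g hfg
    apply Subtype.ext
    ext x
    have h5 := DFunLike.congr_fun hfg (x : P ⧸ N)
    exact congrArg _ h5
  unfold h
  rw [← h1, mul_comm]
  exact Nat.mul_le_mul h2 h3

theorem card_units : Nat.card ℤˣ = 2 := by
  rw [Nat.card_eq_fintype_card]; rfl

theorem h_gen2 {P : Type u} [Group P] [Finite P] (a b : P) (hab : Subgroup.closure ({a, b} : Set P) = ⊤) : h P ≤ 4 := by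
  have h1 : Nat.card (P →* ℤˣ) ≤ Nat.card (ℤˣ × ℤˣ) := by
    refine Nat.card_le_card_of_injective (fun f => (f a, f b)) ?_
    intro f g hfg
    apply MonoidHom.eq_of_eqOn_dense hab
    intro x hx
    rcases hx with rfl | hx
    · exact congrArg Prod.fst hfg
    · rw [Set.mem_singleton_iff] at hx
      rw [hx]
      exact congrArg Prod.snd hfg
  rw [Nat.card_prod, card_units] at h1
  exact h1

theorem h_cyclic {P : Type u} [Group P] [Finite P] (hc : IsCyclic P) : h P ≤ 2 := by
  obtain ⟨a, ha⟩ := hc.exists_generator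
  have h1 : Nat.card (P →* ℤˣ) ≤ Nat.card ℤˣ := by
    refine Nat.card_le_card_of_injective (fun f => f a) ?_
    intro f g hfg
    ext x
    obtain ⟨i, rfl⟩ := Subgroup.mem_zpowers_iff.mp (ha x)
    have h2 : f a = g a := hfg
    rw [map_zpow, map_zpow, h2]
  rw [card_units] at h1
  exact h1

theorem frattini_le_h {P : Type u} [Group P] [Finite P] (hP : IsPGroup 2 P) : (frattini P).index ≤ h P := by
  haveI : Fact (Nat.Prime 2) := ⟨Nat.prime_two⟩
  haveI hchar : (frattini P).Normal := inferInstance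
  let A := P ⧸ frattini P
  have hcomm : ∀ x y : A, x * y = y * x := by
    intro x y
    obtain ⟨a, rfl⟩ := QuotientGroup.mk_surjective x
    obtain ⟨b, rfl⟩ := QuotientGroup.mk_surjective y
    rw [← QuotientGroup.mk_mul, ← QuotientGroup.mk_mul, QuotientGroup.eq]
    have h1 : ⁅b⁻¹, a⁻¹⁆ ∈ commutator P := Subgroup.commutator_mem_commutator (Subgroup.mem_top _) (Subgroup.mem_top _)
    have h2 := CfsgLib.ExtraH28.commutator_le_frattini hP h1
    have h3 : (a * b)⁻¹ * (b * a) = ⁅b⁻¹, a⁻¹⁆ := by rw [commutatorElement_def]; group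
    rw [h3]; exact h2
  letI : CommGroup A := { (inferInstance : Group A) with mul_comm := hcomm }
  have hexp : Monoid.exponent A ∣ 2 := by
    apply Monoid.exponent_dvd_of_forall_pow_eq_one
    intro x
    obtain ⟨a, rfl⟩ := QuotientGroup.mk_surjective x
    show ((a ^ 2 : P) : P ⧸ frattini P) = 1
    exact (QuotientGroup.eq_one_iff _).mpr (CfsgLib.ExtraH28.pow_mem_frattini hP a)
  haveI : HasEnoughRootsOfUnity ℤ 2 := ⟨⟨-1, IsPrimitiveRoot.neg_one 0 (by norm_num)⟩, inferInstance⟩
  haveI : HasEnoughRootsOfUnity ℤ (Monoid.exponent A) := HasEnoughRootsOfUnity.of_dvd ℤ hexp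
  have h1 : Nat.card (A →* ℤˣ) = Nat.card A := CommGroup.card_monoidHom_of_hasEnoughRootsOfUnity A ℤ
  have h2 : (frattini P).index = Nat.card A := rfl
  rw [h2, ← h1]
  unfold h
  refine Nat.card_le_card_of_injective (fun f : A →* ℤˣ => f.comp (QuotientGroup.mk' (frattini P))) ?_
  intro f g hfg
  ext x
  exact congrArg _ (DFunLike.congr_fun hfg x)

end CfsgLib.FgHom
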