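import Cfsg.Agent.LibFgHom
import Cfsg.Agent.LibBGScn
import Cfsg.Agent.LibSolvNilp
import Cfsg.Agent.LibPCyc
import Cfsg.Agent.LibSolvMin

set_option autoImplicit false
set_option linter.all false

/-! Faithful linear `2`-groups: bound for the number of homomorphisms to `{1,-1}`. -/

open Module
open scoped commutatorElement

namespace CfsgLib.FgHom

universe u v w

/-- closure conditions on the bound -/
structure Bd (Q : ℕ → ℕ → Prop) (K : Type w) [Field K] : Prop where
  one : Q 1 2
  add : ∀ a b h1 h2, 1 ≤ a → 1 ≤ b → Q a h1 → Q b h2 → Q (a + b) (h1 * h2)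
  mono : ∀ n h h', h' ≤ h → Q n h → Q n h'
  four : ∀ n, 2 ≤ n → Q n 4
  dbl : ∀ m h1 h2, 2 ≤ m → Q m h1 → Q m h2 → Q (m + m) (2 * (h1 * h2))
  sp : Q 2 8 ∨ ∀ c : K, c ≠ 0 → c = 1 ∨ c = -1

section Rep
variable {K : Type w} [Field K] {P : Type u} [Group P] {V : Type v} [AddCommGroup V] [Module K V]

def Vp (ρ : P →* Module.End K V) (e : P) : Submodule K V := LinearMap.ker (ρ e - 1)
def Vm (ρ : P →* Module.End K V) (e : P) : Submodule K V := LinearMap.ker (ρ e + 1)

theorem mem_Vp {ρ : P →* Module.End K V} {e : P} {x : V} : x ∈ Vp ρ e ↔ ρ e x = x := by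
  unfold Vp
  rw [LinearMap.mem_ker, LinearMap.sub_apply, Module.End.one_apply, sub_eq_zero]

theorem mem_Vm {ρ : P →* Module.End K V} {e : P} {x : V} : x ∈ Vm ρ e ↔ ρ e x = -x := by
  unfold Vm
  rw [LinearMap.mem_ker, LinearMap.add_apply, Module.End.one_apply, add_eq_zero_iff_eq_neg]

theorem compl_V (h2 : (2 : K) ≠ 0) (ρ : P →* Module.End K V) {e : P} (he : e * e = 1) : IsCompl (Vp ρ e) (Vm ρ e) := by
  have hee : ∀ x, ρ e (ρ e x) = x := by
    intro x
    rw [← Module.End.mul_apply, ← map_mul, he, map_one]; rfl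
  constructor
  · rw [disjoint_iff, eq_bot_iff]
    rintro x ⟨hx1, hx2⟩
    have h3 := mem_Vp.mp hx1
    have h4 := mem_Vm.mp hx2
    rw [h3] at h4
    have h5 : (2 : K) • x = 0 := by
      rw [two_smul]
      nth_rewrite 2 [h4]
      rw [add_neg_cancel]
    rcases smul_eq_zero.mp h5 with h6 | h6
    · exact absurd h6 h2
    · rw [Submodule.mem_bot]; exact h6
  · rw [codisjoint_iff, eq_top_iff]
    intro x _
    have h3 : x = (2 : K)⁻¹ • (x + ρ e x) + (2 : K)⁻¹ • (x - ρ e x) := by
      rw [← smul_add]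
      have : x + ρ e x + (x - ρ e x) = (2 : K) • x := by rw [two_smul]; abel
      rw [this, smul_smul, inv_mul_cancel₀ h2, one_smul]
    rw [h3]
    apply Submodule.add_mem_sup
    · rw [mem_Vp, map_smul, map_add, hee, add_comm]
    · rw [mem_Vm, map_smul, map_sub, hee, ← smul_neg, neg_sub]

theorem Vp_bot (h2 : (2 : K) ≠ 0) {ρ : P →* Module.End K V} {e : P} (he : e * e = 1) (hb : Vp ρ e = ⊥) (x : V) : ρ e x = -x := by
  have h1 := (compl_V h2 ρ he).sup_eq_top
  rw [hb, bot_sup_eq] at h1
  exact mem_Vm.mp (by rw [h1]; trivial)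

theorem Vm_bot (h2 : (2 : K) ≠ 0) {ρ : P →* Module.End K V} {e : P} (he : e * e = 1) (hb : Vm ρ e = ⊥) (x : V) : ρ e x = x := by
  have h1 := (compl_V h2 ρ he).sup_eq_top
  rw [hb, sup_bot_eq] at h1
  exact mem_Vp.mp (by rw [h1]; trivial)

end Rep

/-- the inductive statement -/
def Stmt (Q : ℕ → ℕ → Prop) (K : Type w) [Field K] (n : ℕ) : Prop :=
  ∀ (P : Type u) [Group P] [Finite P] (hP : IsPGroup 2 P) (V : Type v) [AddCommGroup V] [Module K V]
      [FiniteDimensional K V] (ρ : P →* Module.End K V), Function.Injective ρ → finrank K V = n → Q n (h P)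

/-- decomposition -/
theorem decomp {Q : ℕ → ℕ → Prop} {K : Type w} [Field K] {P : Type u} [Group P] [Finite P] (hP : IsPGroup 2 P)
    {V : Type v} [AddCommGroup V] [Module K V] [FiniteDimensional K V] (ρ : P →* Module.End K V) (hρ : Function.Injective ρ)
    (V1 V2 : Submodule K V) (hc : IsCompl V1 V2) (hV1 : ∀ g : P, ∀ x ∈ V1, ρ g x ∈ V1) (hV2 : ∀ g : P, ∀ x ∈ V2, ρ g x ∈ V2)
    (ih1 : Stmt.{u, v, w} Q K (finrank K V1)) (ih2 : Stmt.{u, v, w} Q K (finrank K V2)) :
    ∃ h1 h2 : ℕ, Q (finrank K V1) h1 ∧ Q (finrank K V2) h2 ∧ h P ≤ h1 * h2 := by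
  obtain ⟨ρ1, hρ1⟩ : ∃ ρ1 : P →* Module.End K V1, ∀ (g : P) (x : V1), ((ρ1 g x : V1) : V) = ρ g x :=
    ⟨CfsgLib.FgDL.res ρ V1 hV1, fun _ _ => rfl⟩
  obtain ⟨ρ2, hρ2⟩ : ∃ ρ2 : P →* Module.End K V2, ∀ (g : P) (x : V2), ((ρ2 g x : V2) : V) = ρ g x :=
    ⟨CfsgLib.FgDL.res ρ V2 hV2, fun _ _ => rfl⟩
  have hN : ∀ g : P, g ∈ ρ1.ker → ∀ x ∈ V1, ρ g x = x := by
    intro g hg x hx
    have h1 : ρ1 g = 1 := hg
    rw [← hρ1 g ⟨x, hx⟩, h1]; rfl
  refine ⟨h (P ⧸ ρ1.ker), h ρ1.ker, ?_, ?_, ?_⟩
  · have hq : IsPGroup 2 (P ⧸ ρ1.ker) := hP.to_quotient ρ1.ker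
    obtain ⟨σ, hσ⟩ : ∃ σ : (P ⧸ ρ1.ker) →* Module.End K V1, ∀ g : P, σ (g : P ⧸ ρ1.ker) = ρ1 g :=
      ⟨QuotientGroup.lift ρ1.ker ρ1 (le_refl _), fun g => rfl⟩
    have hinj : Function.Injective σ := by
      rw [injective_iff_map_eq_one]
      intro q hq
      obtain ⟨g, rfl⟩ := QuotientGroup.mk_surjective q
      rw [hσ g] at hq
      exact (QuotientGroup.eq_one_iff g).mpr hq
    exact ih1 (P ⧸ ρ1.ker) hq V1 σ hinj rfl
  · refine ih2 ρ1.ker (hP.to_subgroup _) V2 (ρ2.comp ρ1.ker.subtype) ?_ rfl
    rw [injective_iff_map_eq_one]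
    rintro ⟨g, hgk⟩ hg
    apply Subtype.ext
    apply hρ
    show ρ g = ρ 1
    rw [map_one]
    ext x
    have hx : x ∈ V1 ⊔ V2 := by rw [hc.sup_eq_top]; trivial
    obtain ⟨y, hy, z, hz, rfl⟩ := Submodule.mem_sup.mp hx
    rw [map_add, hN g hgk y hy]
    have h1 : ρ g z = z := by
      have h2 : ρ2 g = 1 := hg
      rw [← hρ2 g ⟨z, hz⟩, h2]; rfl
    rw [h1]; rfl
  · rw [mul_comm]
    exact h_ext _

theorem dim_one {K : Type w} [Field K] : Stmt.{u, v, w} (fun _ h => h ≤ 2) K 1 := by
  intro P _ _ hP V _ _ _ ρ hρ hn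
  haveI hnt : Nontrivial V := Module.finrank_pos_iff.mp (by rw [hn]; exact Nat.one_pos)
  apply h_cyclic
  let f : P →* K := (LinearMap.det : Module.End K V →* K).comp ρ
  apply isCyclic_of_subgroup_isDomain f
  intro a b hab
  apply hρ
  have hsc : ∀ g : P, ∃ c : K, ρ g = c • (1 : Module.End K V) := by
    intro g
    obtain ⟨v, hv⟩ := exists_ne (0 : V)
    obtain ⟨c, hc⟩ := (finrank_eq_one_iff_of_nonzero' v hv).mp hn (ρ g v)
    refine ⟨c, ?_⟩
    ext x
    obtain ⟨d, rfl⟩ := (finrank_eq_one_iff_of_nonzero' v hv).mp hn x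
    rw [map_smul, ← hc]
    show d • c • v = c • (d • v)
    rw [smul_comm]
  obtain ⟨c, hc⟩ := hsc a
  obtain ⟨d, hd⟩ := hsc b
  have h3 : LinearMap.det (ρ a) = LinearMap.det (ρ b) := hab
  rw [hc, hd, LinearMap.det_smul, LinearMap.det_smul, hn, pow_one, pow_one, map_one, mul_one, mul_one] at h3
  rw [hc, hd, h3]

theorem scal {K : Type w} [Field K] {V : Type v} [AddCommGroup V] [Module K V] [FiniteDimensional K V] (T : Module.End K V) (U : Submodule K V)
    (hU : ∀ x ∈ U, T x ∈ U) (h1 : finrank K U = 1) (hT : ∀ x, T x = 0 → x = 0)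
    (hK : ∀ c : K, c ≠ 0 → c = 1 ∨ c = -1) : (∀ x ∈ U, T x = x) ∨ (∀ x ∈ U, T x = -x) := by
  haveI hnt : Nontrivial U := Module.finrank_pos_iff.mp (by rw [h1]; exact Nat.one_pos)
  obtain ⟨v, hv⟩ := exists_ne (0 : U)
  obtain ⟨c, hc⟩ := (finrank_eq_one_iff_of_nonzero' v hv).mp h1 ⟨T v, hU v v.2⟩
  have hc' : c • (v : V) = T v := congrArg Subtype.val hc
  have hc0 : c ≠ 0 := by
    rintro rfl
    rw [zero_smul] at hc'
    exact hv (Subtype.ext (hT v hc'.symm))
  rcases hK c hc0 with h | h
  · left
    intro x hx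
    obtain ⟨d, hd⟩ := (finrank_eq_one_iff_of_nonzero' v hv).mp h1 ⟨x, hx⟩
    have hd' : d • (v : V) = x := congrArg Subtype.val hd
    rw [← hd', map_smul, ← hc', h, one_smul]
  · right
    intro x hx
    obtain ⟨d, hd⟩ := (finrank_eq_one_iff_of_nonzero' v hv).mp h1 ⟨x, hx⟩
    have hd' : d • (v : V) = x := congrArg Subtype.val hd
    rw [← hd', map_smul, ← hc', h, neg_smul, one_smul, smul_neg]

theorem main_h {K : Type w} [Field K] (h2 : (2 : K) ≠ 0) {Q : ℕ → ℕ → Prop} (hQ : Bd Q K) : ∀ n : ℕ, 1 ≤ n → Stmt.{u, v, w} Q K n := by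
  intro n
  induction n using Nat.strong_induction_on with
  | _ n ih =>
  intro hn1 P _ _ hP V _ _ _ ρ hρ hn
  classical
  haveI : Fact (Nat.Prime 2) := ⟨Nat.prime_two⟩
  haveI hnt : Nontrivial V := Module.finrank_pos_iff.mp (by rw [hn]; exact hn1)
  rcases hn1.eq_or_lt with h1 | h1
  · -- dimension one
    subst h1
    exact hQ.mono _ _ _ (dim_one P hP V ρ hρ hn) hQ.one
  · by_cases hA : ∃ z : P, z ≠ 1 ∧ z * z = 1 ∧ (∀ g : P, g * z = z * g) ∧ ∃ x : V, ρ z x ≠ -x
    · -- a central involution different from -1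
      obtain ⟨z, hz1, hzz, hzc, x0, hx0⟩ := hA
      have hp0 : Vp ρ z ≠ ⊥ := fun hb => hx0 (Vp_bot h2 hzz hb x0)
      have hm0 : Vm ρ z ≠ ⊥ := by
        intro hb
        apply hz1
        apply hρ
        rw [map_one]
        ext x
        exact Vm_bot h2 hzz hb x
      have hc := compl_V h2 ρ hzz
      have hdim := Submodule.finrank_add_eq_of_isCompl hc
      have hd1 : 0 < finrank K (Vp ρ z) := by
        haveI := Submodule.nontrivial_iff_ne_bot.mpr hp0
        exact Module.finrank_pos
      have hd2 : 0 < finrank K (Vm ρ z) := by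
        haveI := Submodule.nontrivial_iff_ne_bot.mpr hm0
        exact Module.finrank_pos
      have hi1 : ∀ g : P, ∀ x ∈ Vp ρ z, ρ g x ∈ Vp ρ z := by
        intro g x hx
        rw [mem_Vp] at hx ⊢
        rw [← Module.End.mul_apply, ← map_mul, ← hzc g, map_mul, Module.End.mul_apply, hx]
      have hi2 : ∀ g : P, ∀ x ∈ Vm ρ z, ρ g x ∈ Vm ρ z := by
        intro g x hx
        rw [mem_Vm] at hx ⊢
        rw [← Module.End.mul_apply, ← map_mul, ← hzc g, map_mul, Module.End.mul_apply, hx, map_neg]
      obtain ⟨a, b, ha, hb, hab⟩ := decomp hP ρ hρ _ _ hc hi1 hi2 (ih _ (by omega) hd1) (ih _ (by omega) hd2)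
      rw [hn] at hdim
      rw [← hdim]
      exact hQ.mono _ _ _ hab (hQ.add _ _ _ _ hd1 hd2 ha hb)
    · push Not at hA
      by_cases hB : ∀ A : Subgroup P, A.Normal → IsMulCommutative A → IsCyclic A
      · -- two generators
        apply hQ.mono _ _ _ _ (hQ.four n h1)
        rcases CfsgLib.CycNorm.structure_thm hP hB with hcyc | ⟨m, a, b, -, -, -, hidx, -⟩
        · exact (h_cyclic hcyc).trans (by norm_num)
        · apply h_gen2 a b
          rw [eq_top_iff]
          intro g _
          have haC : a ∈ Subgroup.closure ({a, b} : Set P) := Subgroup.subset_closure (by simp)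
          have hbC : b ∈ Subgroup.closure ({a, b} : Set P) := Subgroup.subset_closure (by simp)
          by_cases hg : g ∈ Subgroup.zpowers a
          · exact (Subgroup.zpowers_le.mpr haC) hg
          · have h1 := mul_mem ((Subgroup.zpowers_le.mpr haC) (hidx g hg)) hbC
            rwa [inv_mul_cancel_right] at h1
      · push Not at hB
        obtain ⟨A, hAn, hAc, hAcyc⟩ := hB
        haveI : Group.IsNilpotent P := hP.isNilpotent
        haveI := hAn
        haveI := hAc
        obtain ⟨B, hBA, hBcard, hBe⟩ := CfsgLib.PCyc.exists_elem_of_not_isCyclic Nat.prime_two A (hP.to_subgroup A) hAc hAcyc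
        obtain ⟨Ω, hΩ⟩ : ∃ Ω : Subgroup P, Ω = CfsgLib.SolvMin.powTorsion A 2 := ⟨_, rfl⟩
        haveI hΩn : Ω.Normal := by rw [hΩ]; exact CfsgLib.SolvMin.powTorsion_normal A 2
        have hΩ2 : ∀ x ∈ Ω, x * x = 1 := by
          intro x hx
          rw [hΩ, CfsgLib.SolvMin.mem_powTorsion] at hx
          rw [← sq]; exact hx.2
        have hBΩ : B ≤ Ω := by
          intro b hb
          rw [hΩ, CfsgLib.SolvMin.mem_powTorsion]
          exact ⟨hBA hb, hBe b hb⟩
        have hΩne : Ω ≠ ⊥ := by
          intro hb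
          rw [hb] at hBΩ
          have h3 := le_bot_iff.mp hBΩ
          rw [h3, Subgroup.card_bot] at hBcard
          norm_num at hBcard
        obtain ⟨z, hzΩ, hzc', hz1⟩ : ∃ z ∈ Ω, z ∈ Subgroup.center P ∧ z ≠ 1 := by
          by_contra hcon
          push Not at hcon
          apply CfsgLib.SolvNilp.inf_center_ne_bot Ω hΩne
          rw [eq_bot_iff]
          rintro x ⟨hx1, hx2⟩
          exact hcon x hx1 hx2
        have hzc : ∀ g : P, g * z = z * g := Subgroup.mem_center_iff.mp hzc'
        have hzz := hΩ2 z hzΩ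
        have hzneg := hA z hz1 hzz hzc
        have hzp : ∀ w ∈ Subgroup.zpowers z, w = 1 ∨ w = z := by
          intro w hw
          obtain ⟨i, rfl⟩ := Subgroup.mem_zpowers_iff.mp hw
          rcases Int.even_or_odd' i with ⟨k, hk | hk⟩
          · left
            rw [hk, zpow_mul]
            have : z ^ (2 : ℤ) = 1 := by rw [zpow_ofNat, sq, hzz]
            rw [this, one_zpow]
          · right
            rw [hk, zpow_add, zpow_mul]
            have : z ^ (2 : ℤ) = 1 := by rw [zpow_ofNat, sq, hzz]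
            rw [this, one_zpow, one_mul, zpow_one]
        have hnle : ¬ Ω ≤ Subgroup.zpowers z := by
          intro hle
          have h3 := Nat.le_of_dvd Nat.card_pos (Subgroup.card_dvd_of_le (hBΩ.trans hle))
          rw [hBcard, Nat.card_zpowers] at h3
          have h4 : orderOf z ≤ 2 := Nat.le_of_dvd (by norm_num) (orderOf_dvd_of_pow_eq_one (by rw [sq, hzz]))
          omega
        obtain ⟨D, hDΩ, -, hDn, hDc⟩ := CfsgLib.BGPi.exists_central_section Nat.prime_two (P := (⊤ : Subgroup P)) (C := Ω)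
          (A := Subgroup.zpowers z) (hP.to_subgroup ⊤) le_top (by rw [Subgroup.normalizer_eq_top]) hnle
        obtain ⟨e, heD, hez⟩ : ∃ e ∈ D, e ∉ Subgroup.zpowers z := by
          by_contra hcon
          push Not at hcon
          exact hDn hcon
        have hee : e * e = 1 := hΩ2 e (hDΩ heD)
        have he1 : e ≠ 1 := by
          rintro rfl
          exact hez (Subgroup.one_mem _)
        have hezne : e ≠ z := by
          rintro rfl
          exact hez (Subgroup.mem_zpowers _)
        -- commutation of e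
        have hcm : ∀ g : P, e * g = g * e ∨ e * g = z * (g * e) := by
          intro g
          have h3 : ⁅e, g⁆ ∈ Subgroup.zpowers z := hDc (Subgroup.commutator_mem_commutator heD (Subgroup.mem_top g))
          have h4 : e * g = ⁅e, g⁆ * (g * e) := by rw [commutatorElement_def]; group
          rcases hzp _ h3 with h5 | h5
          · left; rw [h4, h5, one_mul]
          · right; rw [h4, h5]
        obtain ⟨M, hM⟩ : ∃ M : Subgroup P, M = Subgroup.centralizer {e} := ⟨_, rfl⟩
        have hMmem : ∀ g, g ∈ M ↔ e * g = g * e := by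
          intro g
          rw [hM, Subgroup.mem_centralizer_singleton_iff]
          exact ⟨fun h => h.symm, fun h => h.symm⟩
        have hg0 : ∃ g0 : P, g0 ∉ M := by
          by_contra hcon
          push Not at hcon
          apply hezne
          apply hρ
          ext x
          rw [hA e he1 hee (fun g => ((hMmem g).mp (hcon g)).symm) x, hzneg x]
        obtain ⟨g0, hg0⟩ := hg0
        have hg0' : e * g0 = z * (g0 * e) := (hcm g0).resolve_left (fun h => hg0 ((hMmem g0).mpr h))
        have hnM : ∀ g, g ∉ M → e * g = z * (g * e) := fun g hg => (hcm g).resolve_left (fun h => hg ((hMmem g).mpr h))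
        have hprod : ∀ b, b ∉ M → b * g0 ∈ M := by
          intro b hb
          rw [hMmem]
          calc e * (b * g0) = (e * b) * g0 := by group
            _ = z * (b * (e * g0)) := by rw [hnM b hb]; group
            _ = z * (b * (z * (g0 * e))) := by rw [hg0']
            _ = z * ((b * z) * (g0 * e)) := by group
            _ = (z * z) * (b * g0 * e) := by rw [hzc b]; group
            _ = b * g0 * e := by rw [hzz, one_mul]
        have hidx : M.index = 2 := by
          rw [Subgroup.index_eq_two_iff]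
          refine ⟨g0, fun b => ?_⟩
          by_cases hb : b ∈ M
          · right
            refine ⟨hb, fun h' => hg0 ?_⟩
            exact (Subgroup.mul_mem_cancel_left _ hb).mp h'
          · left
            exact ⟨hprod b hb, hb⟩
        haveI hMn : M.Normal := Subgroup.normal_of_index_eq_two hidx
        have hPM : h P ≤ h M * 2 := by
          refine (h_ext M).trans (Nat.mul_le_mul_left _ ?_)
          apply h_cyclic
          exact isCyclic_of_prime_card (p := 2) (by rw [← Subgroup.index_eq_card]; exact hidx)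
        have hc := compl_V h2 ρ hee
        have hdim := Submodule.finrank_add_eq_of_isCompl hc
        have hinj : ∀ g : P, Function.Injective (ρ g) := by
          intro g x y hxy
          have h3 : ρ g⁻¹ (ρ g x) = ρ g⁻¹ (ρ g y) := by rw [hxy]
          rw [← Module.End.mul_apply, ← Module.End.mul_apply, ← map_mul, inv_mul_cancel, map_one] at h3
          exact h3
        have hle1 : finrank K (Vp ρ e) ≤ finrank K (Vm ρ e) := by
          have h3 : finrank K ((Vp ρ e).map (ρ g0)) = finrank K (Vp ρ e) :=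
            (LinearEquiv.finrank_eq (Submodule.equivMapOfInjective (ρ g0) (hinj g0) _)).symm
          rw [← h3]
          apply Submodule.finrank_mono
          rintro _ ⟨x, hx, rfl⟩
          rw [SetLike.mem_coe, mem_Vp] at hx
          rw [mem_Vm, ← Module.End.mul_apply, ← map_mul, hg0', map_mul, map_mul, Module.End.mul_apply, Module.End.mul_apply, hx, hzneg]
        have hle2 : finrank K (Vm ρ e) ≤ finrank K (Vp ρ e) := by
          have h3 : finrank K ((Vm ρ e).map (ρ g0)) = finrank K (Vm ρ e) :=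
            (LinearEquiv.finrank_eq (Submodule.equivMapOfInjective (ρ g0) (hinj g0) _)).symm
          rw [← h3]
          apply Submodule.finrank_mono
          rintro _ ⟨x, hx, rfl⟩
          rw [SetLike.mem_coe, mem_Vm] at hx
          rw [mem_Vp, ← Module.End.mul_apply, ← map_mul, hg0', map_mul, map_mul, Module.End.mul_apply, Module.End.mul_apply, hx,
            map_neg, hzneg, neg_neg]
        have heq : finrank K (Vm ρ e) = finrank K (Vp ρ e) := le_antisymm hle2 hle1
        obtain ⟨m, hm⟩ : ∃ m, m = finrank K (Vp ρ e) := ⟨_, rfl⟩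
        rw [heq, hn, ← hm] at hdim
        have hinj' : Function.Injective (ρ.comp M.subtype) := hρ.comp M.subtype_injective
        have hi1 : ∀ g : M, ∀ x ∈ Vp ρ e, (ρ.comp M.subtype) g x ∈ Vp ρ e := by
          intro g x hx
          rw [mem_Vp] at hx ⊢
          show ρ e (ρ (g : P) x) = ρ (g : P) x
          rw [← Module.End.mul_apply, ← map_mul, (hMmem g).mp g.2, map_mul, Module.End.mul_apply, hx]
        have hi2 : ∀ g : M, ∀ x ∈ Vm ρ e, (ρ.comp M.subtype) g x ∈ Vm ρ e := by
          intro g x hx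
          rw [mem_Vm] at hx ⊢
          show ρ e (ρ (g : P) x) = -ρ (g : P) x
          rw [← Module.End.mul_apply, ← map_mul, (hMmem g).mp g.2, map_mul, Module.End.mul_apply, hx, map_neg]
        by_cases hm2 : 2 ≤ m
        · obtain ⟨a, b, ha, hb, hab⟩ := decomp (hP.to_subgroup M) (ρ.comp M.subtype) hinj' _ _ hc hi1 hi2
            (ih _ (by omega) (by omega)) (ih _ (by omega) (by omega))
          rw [heq, ← hm] at hb
          rw [← hm] at ha
          rw [← hdim]
          apply hQ.mono _ _ _ _ (hQ.dbl m a b hm2 ha hb)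
          calc h P ≤ h M * 2 := hPM
            _ ≤ (a * b) * 2 := Nat.mul_le_mul_right _ hab
            _ = 2 * (a * b) := by ring
        · have hm1 : m = 1 := by omega
          have hn2 : n = 2 := by omega
          rw [hm1] at hm
          rcases hQ.sp with hsp | hsp
          · obtain ⟨a, b, ha, hb, hab⟩ := decomp (Q := fun _ h => h ≤ 2) (hP.to_subgroup M) (ρ.comp M.subtype) hinj' _ _ hc hi1 hi2
              (by rw [← hm]; exact dim_one) (by rw [heq, ← hm]; exact dim_one)
            rw [hn2]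
            apply hQ.mono _ _ _ _ hsp
            have ha' : a ≤ 2 := ha
            have hb' : b ≤ 2 := hb
            have h5 : a * b ≤ 2 * 2 := Nat.mul_le_mul ha' hb'
            omega
          · rw [hn2]
            apply hQ.mono _ _ _ _ (hQ.four 2 le_rfl)
            apply h_gen2 e g0
            have heC : e ∈ Subgroup.closure ({e, g0} : Set P) := Subgroup.subset_closure (by simp)
            have hgC : g0 ∈ Subgroup.closure ({e, g0} : Set P) := Subgroup.subset_closure (by simp)
            have hzC : z ∈ Subgroup.closure ({e, g0} : Set P) := by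
              have h5 : z = (e * g0) * (g0 * e)⁻¹ := by rw [hg0']; group
              rw [h5]
              exact mul_mem (mul_mem heC hgC) (inv_mem (mul_mem hgC heC))
            have hMC : ∀ g ∈ M, g ∈ Subgroup.closure ({e, g0} : Set P) := by
              intro g hg
              have hs1 := scal (ρ g) (Vp ρ e) (fun x hx => hi1 ⟨g, hg⟩ x hx) hm.symm
                (fun x hx => hinj g (by rw [hx, map_zero])) hsp
              have hs2 := scal (ρ g) (Vm ρ e) (fun x hx => hi2 ⟨g, hg⟩ x hx) (by rw [heq]; exact hm.symm)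
                (fun x hx => hinj g (by rw [hx, map_zero])) hsp
              have hext : ∀ w : P, (∀ x ∈ Vp ρ e, ρ g x = ρ w x) → (∀ x ∈ Vm ρ e, ρ g x = ρ w x) → g = w := by
                intro w h5 h6
                apply hρ
                ext x
                have hx : x ∈ Vp ρ e ⊔ Vm ρ e := by rw [hc.sup_eq_top]; trivial
                obtain ⟨y, hy, t, ht, rfl⟩ := Submodule.mem_sup.mp hx
                rw [map_add, map_add, h5 y hy, h6 t ht]
              rcases hs1 with hs1 | hs1 <;> rcases hs2 with hs2 | hs2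
              · rw [hext 1 (fun x hx => by rw [hs1 x hx, map_one]; rfl) (fun x hx => by rw [hs2 x hx, map_one]; rfl)]
                exact Subgroup.one_mem _
              · rw [hext e (fun x hx => by rw [hs1 x hx, mem_Vp.mp hx]) (fun x hx => by rw [hs2 x hx, mem_Vm.mp hx])]
                exact heC
              · rw [hext (z * e) (fun x hx => by
                    rw [hs1 x hx, map_mul, Module.End.mul_apply, mem_Vp.mp hx, hzneg])
                  (fun x hx => by rw [hs2 x hx, map_mul, Module.End.mul_apply, mem_Vm.mp hx, map_neg, hzneg, neg_neg])]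
                exact mul_mem hzC heC
              · rw [hext z (fun x hx => by rw [hs1 x hx, hzneg]) (fun x hx => by rw [hs2 x hx, hzneg])]
                exact hzC
            rw [eq_top_iff]
            intro g _
            by_cases hg : g ∈ M
            · exact hMC g hg
            · have h5 := mul_mem (hMC _ (hprod g hg)) (inv_mem hgC)
              rwa [mul_inv_cancel_right] at h5

end CfsgLib.FgHom
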