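import Cfsg.Agent.LibFgHom2
import Cfsg.Agent.LibBGRepC

set_option autoImplicit false
set_option linter.all false

/-! Number of homomorphisms of a `2`-group acting faithfully on an elementary abelian group of odd order. -/

open Module

namespace CfsgLib.FgHom

universe u v w

theorem bd5 (K : Type) [Field K] : Bd (fun n h => 2 * h ≤ 4 ^ n) K where
  one := by norm_num
  add := by
    intro a b h1 h2 _ _ ha hb
    have h3 : (2 * h1) * (2 * h2) ≤ 4 ^ a * 4 ^ b := Nat.mul_le_mul ha hb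
    rw [← pow_add] at h3
    have h4 : (2 * h1) * (2 * h2) = 2 * (2 * (h1 * h2)) := by ring
    rw [h4] at h3
    show 2 * (h1 * h2) ≤ 4 ^ (a + b)
    omega
  mono := by
    intro n h h' hh hq
    show 2 * h' ≤ 4 ^ n
    have : 2 * h ≤ 4 ^ n := hq
    omega
  four := by
    intro n hn
    show 2 * 4 ≤ 4 ^ n
    have : 4 ^ 2 ≤ 4 ^ n := Nat.pow_le_pow_right (by norm_num) hn
    omega
  dbl := by
    intro m h1 h2 _ ha hb
    have h3 : (2 * h1) * (2 * h2) ≤ 4 ^ m * 4 ^ m := Nat.mul_le_mul ha hb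
    rw [← pow_add] at h3
    show 2 * (2 * (h1 * h2)) ≤ 4 ^ (m + m)
    have h4 : (2 * h1) * (2 * h2) = 2 * (2 * (h1 * h2)) := by ring
    rwa [h4] at h3
  sp := by left; norm_num

theorem bd3 : Bd (fun n h => (n = 1 ∧ h ≤ 2) ∨ (2 ≤ n ∧ 4 * h ^ 2 ≤ 8 ^ n)) (ZMod 3) where
  one := Or.inl ⟨rfl, le_rfl⟩
  add := by
    intro a b h1 h2 ha1 hb1 ha hb
    right
    refine ⟨by omega, ?_⟩
    rcases ha with ⟨ha, ha'⟩ | ⟨ha, ha'⟩ <;> rcases hb with ⟨hb, hb'⟩ | ⟨hb, hb'⟩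
    · subst ha; subst hb
      have h3 : h1 * h2 ≤ 2 * 2 := Nat.mul_le_mul ha' hb'
      have h4 : (h1 * h2) ^ 2 ≤ (2 * 2) ^ 2 := Nat.pow_le_pow_left h3 2
      norm_num at h4 ⊢
      omega
    · subst ha
      have h3 : h1 ^ 2 ≤ 2 ^ 2 := Nat.pow_le_pow_left ha' 2
      calc 4 * (h1 * h2) ^ 2 = h1 ^ 2 * (4 * h2 ^ 2) := by ring
        _ ≤ 2 ^ 2 * 8 ^ b := Nat.mul_le_mul h3 hb'
        _ ≤ 8 * 8 ^ b := Nat.mul_le_mul_right _ (by norm_num)
        _ = 8 ^ (1 + b) := by rw [pow_add, pow_one]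
    · subst hb
      have h3 : h2 ^ 2 ≤ 2 ^ 2 := Nat.pow_le_pow_left hb' 2
      calc 4 * (h1 * h2) ^ 2 = h2 ^ 2 * (4 * h1 ^ 2) := by ring
        _ ≤ 2 ^ 2 * 8 ^ a := Nat.mul_le_mul h3 ha'
        _ ≤ 8 * 8 ^ a := Nat.mul_le_mul_right _ (by norm_num)
        _ = 8 ^ (a + 1) := by rw [pow_add, pow_one, mul_comm]
    · calc 4 * (h1 * h2) ^ 2 ≤ 4 * (4 * (h1 * h2) ^ 2) := by omega
        _ = (4 * h1 ^ 2) * (4 * h2 ^ 2) := by ring
        _ ≤ 8 ^ a * 8 ^ b := Nat.mul_le_mul ha' hb'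
        _ = 8 ^ (a + b) := by rw [pow_add]
  mono := by
    intro n h h' hh hq
    rcases hq with ⟨h1, h2⟩ | ⟨h1, h2⟩
    · exact Or.inl ⟨h1, hh.trans h2⟩
    · right
      refine ⟨h1, ?_⟩
      have h3 : h' ^ 2 ≤ h ^ 2 := Nat.pow_le_pow_left hh 2
      omega
  four := by
    intro n hn
    right
    refine ⟨hn, ?_⟩
    have : 8 ^ 2 ≤ 8 ^ n := Nat.pow_le_pow_right (by norm_num) hn
    omega
  dbl := by
    intro m h1 h2 hm ha hb
    right
    refine ⟨by omega, ?_⟩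
    rcases ha with ⟨ha, -⟩ | ⟨-, ha'⟩
    · omega
    rcases hb with ⟨hb, -⟩ | ⟨-, hb'⟩
    · omega
    calc 4 * (2 * (h1 * h2)) ^ 2 = (4 * h1 ^ 2) * (4 * h2 ^ 2) := by ring
      _ ≤ 8 ^ m * 8 ^ m := Nat.mul_le_mul ha' hb'
      _ = 8 ^ (m + m) := by rw [pow_add]
  sp := by right; decide


theorem final_mod {A : Type u} [AddCommGroup A] [Nontrivial A] {P : Type v} [Group P] [Finite P] (hP : IsPGroup 2 P)
    (r : ℕ) [hr' : Fact r.Prime] (hr2 : r ≠ 2) [Module (ZMod r) A] [Module.Finite (ZMod r) A] [Finite A]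
    (ρ : P →* Module.End (ZMod r) A) (hρ : Function.Injective ρ) :
    h P ≤ Nat.card A - 1 := by
  classical
  have hr : r.Prime := hr'.out
  obtain ⟨n, hn⟩ : ∃ n, finrank (ZMod r) A = n := ⟨_, rfl⟩
  have hcard : Nat.card A = r ^ n := by
    have h1 := Module.natCard_eq_pow_finrank (K := ZMod r) (V := A)
    rw [Nat.card_zmod, hn] at h1
    exact h1
  have hn1 : 1 ≤ n := by
    rcases Nat.eq_zero_or_pos n with h | h
    · exfalso
      rw [h, pow_zero] at hcard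
      have := Finite.one_lt_card (α := A)
      omega
    · exact h
  have h2K : (2 : ZMod r) ≠ 0 := by
    intro h
    have h1 : ((2 : ℕ) : ZMod r) = 0 := by exact_mod_cast h
    rw [ZMod.natCast_eq_zero_iff] at h1
    exact hr2 ((Nat.prime_dvd_prime_iff_eq hr Nat.prime_two).mp h1)
  rw [hcard]
  by_cases hr3 : r = 3
  · subst hr3
    have hmain := main_h h2K bd3 n hn1 P hP A ρ hρ hn
    rcases hmain with ⟨h1, h2⟩ | ⟨h1, h2⟩
    · rw [h1]
      norm_num
      omega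
    · have h3 : h P < 3 ^ n := by
        by_contra hcon
        push Not at hcon
        have h4 : (3 ^ n) ^ 2 ≤ (h P) ^ 2 := Nat.pow_le_pow_left hcon 2
        have h5 : (3 ^ n) ^ 2 = 9 ^ n := by rw [← pow_mul, mul_comm, pow_mul]; norm_num
        have h6 : 8 ^ n ≤ 9 ^ n := Nat.pow_le_pow_left (by norm_num) n
        have h7 : 0 < 9 ^ n := by positivity
        omega
      omega
  · have hr5 : 5 ≤ r := by
      have h3 := hr.two_le
      have h4 : r ≠ 4 := by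
        rintro rfl
        norm_num at hr
      omega
    have hmain := main_h h2K (bd5 (ZMod r)) n hn1 P hP A ρ hρ hn
    have h1 : 2 * h P ≤ 4 ^ n := hmain
    have h3 : 4 ^ n ≤ r ^ n := Nat.pow_le_pow_left (by omega) n
    have h4 : 4 ^ 1 ≤ 4 ^ n := Nat.pow_le_pow_right (by norm_num) hn1
    omega

theorem final {A : Type u} [CommGroup A] [Finite A] [Nontrivial A] {P : Type v} [Group P] [Finite P] (hP : IsPGroup 2 P)
    (r : ℕ) [hr' : Fact r.Prime] (hr2 : r ≠ 2) (hexp : ∀ x : A, x ^ r = 1) (φ : P →* MulAut A) (hφ : Function.Injective φ) :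
    h P ≤ Nat.card A - 1 := by
  obtain ⟨inst, π, hfin, hπ⟩ := CfsgLib.BGRep.exists_rep φ r hexp
  haveI : Finite (Additive A) := inferInstanceAs (Finite A)
  haveI : Nontrivial (Additive A) := inferInstanceAs (Nontrivial A)
  refine final_mod (A := Additive A) hP r hr2 π ?_
  intro a b hab
  apply hφ
  ext x
  have h3 : π a (Additive.ofMul x) = π b (Additive.ofMul x) := by rw [hab]
  rw [hπ, hπ] at h3
  exact Additive.ofMul.injective h3

end CfsgLib.FgHom
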