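import Cfsg.Agent.LibClifford2
import Cfsg.Agent.LibGlaub2
import Cfsg.Agent.LibExtend7
import Cfsg.Agent.LibCharMore
import Cfsg.Agent.LibTate2
import Cfsg.Agent.LibFgSyl
import Cfsg.Agent.LibH2Misc
import Cfsg.Agent.LibSolvFrat
import Cfsg.Agent.LibTransPC

/-!
# Kernels of characters of degree prime to p (helper5)
-/
set_option autoImplicit false
set_option linter.all false
open scoped ComplexConjugate
open scoped commutatorElement
open Cfsg

namespace CfsgLib.FgKer
open CfsgLib.CharBasic CfsgLib.CharIndA CfsgLib.CharNorm CfsgLib.Clifford CfsgLib.CharMore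
open CfsgLib.CharInt (irr_one_eq_charDegree)
open scoped Pointwise

universe u
section A
variable {G : Type u} [Group G] [Finite G]

/-- if a sum of characters has g in its kernel then so do the summands -/
theorem ker_of_add {a b : G → ℂ} (ha : IsCharacter G a) (hb : IsCharacter G b) {g : G}
    (h : a g + b g = a 1 + b 1) : a g = a 1 := by
  haveI := Fintype.ofFinite G
  have h1 := char_norm_le ha g
  have h2 := char_norm_le hb g
  have h3 : (a g).re + (b g).re = (a 1).re + (b 1).re := by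
    have := congrArg Complex.re h
    simpa using this
  have h4 := Complex.re_le_norm (a g)
  have h5 := Complex.re_le_norm (b g)
  have h6 : (a g).re = (a 1).re := by linarith
  have h7 : ‖a g‖ = (a g).re := by linarith
  have h8 : (a g).im = 0 := by
    have h9 : ‖a g‖ ^ 2 = (a g).re * (a g).re + (a g).im * (a g).im := by
      rw [Complex.sq_norm, Complex.normSq_apply]
    rw [h7] at h9
    have h10 : (a g).im * (a g).im = 0 := by nlinarith
    exact mul_self_eq_zero.mp h10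
  obtain ⟨n, hn⟩ := char_one_nat ha
  apply Complex.ext
  · exact h6
  · rw [h8, hn]; simp

end A

section B
variable {G : Type u} [Group G] [Fintype G]

/-- a character of degree prime to p has an irreducible constituent of degree prime to p -/
theorem exists_pprime_constituent {p : ℕ} {Ψ : G → ℂ} (h : IsCharacter G Ψ) {d : ℕ} (hd : Ψ 1 = d) (hp : ¬ p ∣ d) :
    ∃ χ : IrrCharacter G, ¬ p ∣ charDegree (χ : G → ℂ) ∧ classInner Ψ χ ≠ 0 := by
  classical
  obtain ⟨m, hm, hexp, -⟩ := char_expand h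
  by_contra hcon
  push Not at hcon
  apply hp
  have h1 : d = ∑ χ : IrrCharacter G, m χ * charDegree (χ : G → ℂ) := by
    have h2 := congrFun hexp 1
    rw [hd, Finset.sum_apply] at h2
    simp only [Pi.smul_apply, smul_eq_mul] at h2
    rw [Finset.sum_congr rfl fun χ _ => by rw [irr_one_eq_charDegree χ.2]] at h2
    exact_mod_cast h2
  rw [h1]
  apply Finset.dvd_sum
  intro χ _
  by_cases h3 : p ∣ charDegree (χ : G → ℂ)
  · exact Dvd.dvd.mul_left h3 _
  · have h4 := hcon χ h3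
    rw [hm] at h4
    have h5 : m χ = 0 := by exact_mod_cast h4
    rw [h5, zero_mul]
    exact dvd_zero p

/-- a normal subgroup whose restriction contains the trivial character lies in the kernel -/
theorem le_ker_of_inner_one {M : Subgroup G} (hM : M.Normal) [Fintype M] {χ : G → ℂ} (hχ : IsIrrCharacter G χ)
    (h : classInner (fun m : M => χ m) (fun _ => 1) ≠ 0) (m : M) : χ m = χ 1 := by
  have h1 := restrict_of_invariant hM hχ (isIrrCharacter_one (G := M)) (fun g => by ext x; rfl) h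
  have h2 := congrFun h1 m
  have h3 := congrFun h1 1
  simp only [Pi.smul_apply, smul_eq_mul, mul_one] at h2 h3
  rw [h2]
  exact h3.symm

/-- the same in terms of sums -/
theorem le_ker_of_sum_ne {M : Subgroup G} (hM : M.Normal) [Fintype M] {χ : G → ℂ} (hχ : IsIrrCharacter G χ)
    (h : ∑ m : M, χ m ≠ 0) (m : M) : χ m = χ 1 := by
  apply le_ker_of_inner_one hM hχ
  rw [inner_one_right]
  exact mul_ne_zero (inv_ne_zero (by exact_mod_cast Nat.card_pos.ne')) h

/-- the sum over a subgroup is the order times a natural number -/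
theorem sum_nat {D : Subgroup G} [Fintype D] {χ : G → ℂ} (hχ : IsCharacter G χ) :
    ∃ n : ℕ, ∑ d : D, χ d = (Nat.card D : ℂ) * n := by
  obtain ⟨n, hn⟩ := char_mult (isCharacter_restrict hχ D) (isCharacter_one (G := D))
  refine ⟨n, ?_⟩
  rw [inner_one_right] at hn
  rw [← hn, ← mul_assoc, mul_inv_cancel₀ (by exact_mod_cast Nat.card_pos.ne'), one_mul]

end B

section C
variable {G : Type u} [Group G] [Fintype G] {p : ℕ} [hp : Fact p.Prime]

/-- a nontrivial p-group acting coprimely on L with only trivial fixed points fixes only the trivial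
irreducible character, and conversely -/
theorem inv_trivial {L : Subgroup G} (hL : L.Normal) (P : Subgroup G) (hP : IsPGroup p P) (hLp : ¬ p ∣ Nat.card L)
    (hc : L ⊓ Subgroup.centralizer (P : Set G) = ⊥) {θ : L → ℂ} (hθ : IsIrrCharacter L θ)
    (hinv : ∀ x ∈ P, cj hL x θ = θ) : θ = fun _ => 1 := by
  haveI := Fintype.ofFinite L
  have hsolv : Group.IsSolvable P := by
    haveI := hP.isNilpotent
    infer_instance
  have hcop : (Nat.card P).Coprime (Nat.card L) := by
    obtain ⟨k, hk⟩ := IsPGroup.iff_card.mp hP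
    rw [hk]
    exact Nat.Coprime.pow_left k ((Nat.Prime.coprime_iff_not_dvd hp.out).mpr hLp)
  let φ : P →* MulAut L := (MulAut.conjNormal : G →* MulAut L).comp P.subtype
  have h1 := Glaub2.card_invariant_irr φ hcop hsolv
  have h2 : CfsgLib.Glaub.fix φ = ⊥ := by
    rw [eq_bot_iff]
    intro x hx
    have h3 : (x : G) ∈ L ⊓ Subgroup.centralizer (P : Set G) := by
      refine Subgroup.mem_inf.mpr ⟨x.2, ?_⟩
      rw [Subgroup.mem_centralizer_iff]
      intro y hy
      have h4 := congrArg (fun z : L => (z : G)) (hx ⟨y, hy⟩)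
      have h5 : y * (x : G) * y⁻¹ = x := h4
      rw [mul_inv_eq_iff_eq_mul] at h5
      exact h5
    rw [hc, Subgroup.mem_bot] at h3
    rw [Subgroup.mem_bot]
    exact Subtype.ext h3
  rw [h2] at h1
  have h3 : Nat.card (ConjClasses (⊥ : Subgroup L)) = 1 := by
    rw [Nat.card_eq_one_iff_unique]
    refine ⟨⟨fun a b => ?_⟩, ⟨1⟩⟩
    obtain ⟨a, rfl⟩ := ConjClasses.exists_rep a
    obtain ⟨b, rfl⟩ := ConjClasses.exists_rep b
    rw [Subsingleton.elim a b]
  rw [h3, Nat.card_eq_one_iff_unique] at h1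
  haveI := h1.1
  have h4 := Subsingleton.elim (α := {χ : IrrCharacter L // CfsgLib.Glaub.Inv φ (χ : L → ℂ)})
    ⟨⟨θ, hθ⟩, fun a g => by
      have h5 := congrFun (hinv a a.2) g
      exact h5⟩ ⟨⟨fun _ => 1, isIrrCharacter_one⟩, fun a g => rfl⟩
  exact congrArg (fun z => (z.1 : L → ℂ)) h4

/-- if fixed points are nontrivial, there is a nontrivial invariant irreducible character -/
theorem exists_inv_nontrivial {L : Subgroup G} (hL : L.Normal) (P : Subgroup G) (hP : IsPGroup p P) (hLp : ¬ p ∣ Nat.card L)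
    (hc : L ⊓ Subgroup.centralizer (P : Set G) ≠ ⊥) : ∃ θ : L → ℂ, IsIrrCharacter L θ ∧
    (∀ x ∈ P, cj hL x θ = θ) ∧ θ ≠ fun _ => 1 := by
  haveI := Fintype.ofFinite L
  have hsolv : Group.IsSolvable P := by
    haveI := hP.isNilpotent
    infer_instance
  have hcop : (Nat.card P).Coprime (Nat.card L) := by
    obtain ⟨k, hk⟩ := IsPGroup.iff_card.mp hP
    rw [hk]
    exact Nat.Coprime.pow_left k ((Nat.Prime.coprime_iff_not_dvd hp.out).mpr hLp)
  let φ : P →* MulAut L := (MulAut.conjNormal : G →* MulAut L).comp P.subtype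
  have h1 := Glaub2.card_invariant_irr φ hcop hsolv
  obtain ⟨x, hx, hx1⟩ := (Subgroup.ne_bot_iff_exists_ne_one).mp hc |>.elim (fun x hx => (⟨(x : G), x.2, fun h => hx (Subtype.ext h)⟩ : ∃ x : G, x ∈ L ⊓ Subgroup.centralizer (P : Set G) ∧ x ≠ 1))
  obtain ⟨hxL, hxC⟩ := Subgroup.mem_inf.mp hx
  have hxf : (⟨x, hxL⟩ : L) ∈ CfsgLib.Glaub.fix φ := by
    intro a
    apply Subtype.ext
    change (a : G) * x * (a : G)⁻¹ = x
    rw [mul_inv_eq_iff_eq_mul]
    exact Subgroup.mem_centralizer_iff.mp hxC a a.2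
  have h2 : 1 < Nat.card (ConjClasses (CfsgLib.Glaub.fix φ)) := by
    rw [Finite.one_lt_card_iff_nontrivial]
    refine ⟨⟨ConjClasses.mk 1, ConjClasses.mk ⟨⟨x, hxL⟩, hxf⟩, fun h => ?_⟩⟩
    rw [ConjClasses.mk_eq_mk_iff_isConj] at h
    have h3 := isConj_one_right.mp h
    have h4 := congrArg (fun z : CfsgLib.Glaub.fix φ => ((z : L) : G)) h3
    exact hx1 (by simpa using h4)
  rw [← h1, Finite.one_lt_card_iff_nontrivial] at h2
  obtain ⟨χ, hχ⟩ := exists_ne (α := {χ : IrrCharacter L // CfsgLib.Glaub.Inv φ (χ : L → ℂ)}) ⟨⟨fun _ => 1, isIrrCharacter_one⟩, fun a g => rfl⟩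
  refine ⟨χ.1, χ.1.2, ?_, ?_⟩
  · intro y hy
    ext g
    exact χ.2 ⟨y, hy⟩ g
  · intro h
    apply hχ
    apply Subtype.ext
    apply Subtype.ext
    exact h

end C

section D
variable {G : Type u} [Group G] [Fintype G] {p : ℕ} [hp : Fact p.Prime]

theorem inf_sylow_eq_bot (P : Sylow p G) {N : Subgroup G} (hNn : N.Normal)
    (hN : N ⊓ Subgroup.centralizer ((P : Subgroup G) : Set G) = ⊥) : N ⊓ (P : Subgroup G) = ⊥ := by
  haveI : Group.IsNilpotent (P : Subgroup G) := P.isPGroup'.isNilpotent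
  by_contra hne
  have h1 : N.subgroupOf (P : Subgroup G) ≠ ⊥ := by
    intro h
    rw [Subgroup.subgroupOf_eq_bot, disjoint_iff] at h
    exact hne h
  have h2 := CfsgLib.SolvNilp.inf_center_ne_bot (N.subgroupOf (P : Subgroup G)) h1
  apply h2
  rw [eq_bot_iff]
  intro x hx
  obtain ⟨hx1, hx2⟩ := Subgroup.mem_inf.mp hx
  have h3 : (x : G) ∈ N ⊓ Subgroup.centralizer ((P : Subgroup G) : Set G) := by
    refine Subgroup.mem_inf.mpr ⟨hx1, ?_⟩
    rw [Subgroup.mem_centralizer_iff]
    intro y hy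
    have := Subgroup.mem_center_iff.mp hx2 ⟨y, hy⟩
    exact congrArg (fun z : (P : Subgroup G) => (z : G)) this
  rw [hN, Subgroup.mem_bot] at h3
  rw [Subgroup.mem_bot]
  exact Subtype.ext h3

theorem not_dvd_card_of_inf (P : Sylow p G) {N : Subgroup G} (hNn : N.Normal)
    (h : N ⊓ (P : Subgroup G) = ⊥) : ¬ p ∣ Nat.card N := by
  intro hd
  have h1 := CfsgLib.H2Misc.not_dvd_relIndex_sylow_of_normal P N
  apply h1
  have h2 : (P : Subgroup G).relIndex N = Nat.card N := by
    rw [← Subgroup.inf_relIndex_right, inf_comm, h, Subgroup.relIndex_bot_left]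
  rw [h2]
  exact hd

theorem charDegree_dvd_split {χ : G → ℂ} (hχ : IsIrrCharacter G χ) {a b c : ℕ}
    (h : χ 1 = (a : ℂ) * (b : ℂ) * (c : ℂ)) : charDegree χ = a * b * c := by
  rw [irr_one_eq_charDegree hχ] at h
  exact_mod_cast h

/-- the normal subgroup `N` with `C_N(P) = 1` lies in all kernels of characters of degree prime to p -/
theorem normal_le_ker (P : Sylow p G) {N : Subgroup G} (hNn : N.Normal)
    (hN : N ⊓ Subgroup.centralizer ((P : Subgroup G) : Set G) = ⊥) {χ : G → ℂ} (hχ : IsIrrCharacter G χ)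
    (hd : ¬ p ∣ charDegree χ) (n : N) : χ n = χ 1 := by
  haveI := Fintype.ofFinite N
  have h0 := inf_sylow_eq_bot P hNn hN
  have hNp := not_dvd_card_of_inf P hNn h0
  obtain ⟨θ₀, hθ₀, hne⟩ := exists_below N hχ
  have hdeg := clifford_degree hNn hχ hθ₀ hne
  obtain ⟨m, hm⟩ := char_mult (isCharacter_restrict (irr_isCharacter hχ) N) (irr_isCharacter hθ₀)
  obtain ⟨e, -, he⟩ := irr_one_nat hθ₀
  rw [hm, he] at hdeg
  have hdeg' := charDegree_dvd_split hχ hdeg
  have hidx : ¬ p ∣ (inertia hNn θ₀).index := by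
    intro h
    apply hd
    rw [hdeg']
    exact Dvd.dvd.mul_right (Dvd.dvd.mul_left h _) _
  obtain ⟨Q, hQ⟩ := CfsgLib.FgSyl.exists_sylow_le hidx
  obtain ⟨g, hg⟩ := MulAction.exists_smul_eq G Q P
  have hθ : ∀ x ∈ (P : Subgroup G), cj hNn x (cj hNn g⁻¹ θ₀) = cj hNn g⁻¹ θ₀ := by
    intro x hx
    rw [← hg, CfsgLib.FgSyl.mem_smul_iff] at hx
    rw [cj_cj, cj_eq_iff]
    have h1 : g⁻¹ * x * g⁻¹⁻¹ = g⁻¹ * x * g := by rw [inv_inv]
    rw [h1]
    exact hQ hx
  have h1 := inv_trivial hNn (P : Subgroup G) P.isPGroup' hNp hN (cj_irr hNn g⁻¹ hθ₀) hθ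
  have h2 : θ₀ = fun _ => 1 := by
    apply cj_inj hNn (g := g⁻¹)
    rw [h1]
    ext x
    rfl
  rw [h2] at hne
  exact le_ker_of_inner_one hNn hχ hne n

/-- a character of degree prime to p contains a linear character of P -/
theorem exists_linear_constituent (P : Sylow p G) {χ : G → ℂ} (hχ : IsIrrCharacter G χ)
    (hd : ¬ p ∣ charDegree χ) : ∃ (f : (P : Subgroup G) →* ℂˣ) (r : ↥(P : Subgroup G) → ℂ),
      IsCharacter (P : Subgroup G) r ∧ (fun y : (P : Subgroup G) => χ y) = (fun y => (f y : ℂ)) + r := by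
  haveI := Fintype.ofFinite (P : Subgroup G)
  have h1 : (fun y : (P : Subgroup G) => χ y) 1 = (charDegree χ : ℂ) := irr_one_eq_charDegree hχ
  obtain ⟨ψ, hψ, hψ2⟩ := exists_pprime_constituent (isCharacter_restrict (irr_isCharacter hχ) (P : Subgroup G)) h1 hd
  have h2 : charDegree (ψ : ↥(P : Subgroup G) → ℂ) = 1 := by
    have h3 := CfsgLib.CharInt2.charDegree_dvd_card ψ.2
    obtain ⟨k, hk⟩ := IsPGroup.iff_card.mp P.isPGroup'
    rw [hk] at h3
    obtain ⟨j, -, hj⟩ := (Nat.dvd_prime_pow hp.out).mp h3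
    rcases Nat.eq_zero_or_pos j with h | h
    · rw [hj, h, pow_zero]
    · exfalso; apply hψ; rw [hj]; exact dvd_pow_self p h.ne'
  obtain ⟨f, hf⟩ := exists_hom_of_linear (irr_isCharacter ψ.2) (by
    rw [irr_one_eq_charDegree ψ.2, h2, Nat.cast_one])
  obtain ⟨r, hr, hr2⟩ := split_off (isCharacter_restrict (irr_isCharacter hχ) (P : Subgroup G)) ψ.2 hψ2
  refine ⟨f, r, hr, ?_⟩
  rw [hr2]
  congr 1
  first
    | exact hf
    | exact hf.symm
    | (ext y; exact (hf y))
    | (ext y; exact (hf y).symm)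

/-- the commutator subgroup of `P` is killed by homomorphisms to abelian groups -/
theorem hom_commutator {P : Subgroup G} (f : P →* ℂˣ) {x : G} (hx : x ∈ ⁅P, P⁆) (hxP : x ∈ P) :
    f ⟨x, hxP⟩ = 1 := by
  rw [← Subgroup.map_subtype_commutator] at hx
  obtain ⟨y, hy, hyx⟩ := hx
  have h1 : y = ⟨x, hxP⟩ := Subtype.ext hyx
  rw [← h1]
  exact Abelianization.commutator_subset_ker f hy

/-- part A -/
theorem le_ker (P : Sylow p G) {N M : Subgroup G} (hNn : N.Normal) (hM : M.Normal)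
    (hN : N ⊓ Subgroup.centralizer ((P : Subgroup G) : Set G) = ⊥)
    (hNM : N ≤ M) (hMN : M ≤ N ⊔ ⁅(P : Subgroup G), (P : Subgroup G)⁆) {χ : G → ℂ} (hχ : IsIrrCharacter G χ)
    (hd : ¬ p ∣ charDegree χ) (m : M) : χ m = χ 1 := by
  classical
  haveI := Fintype.ofFinite N
  haveI := Fintype.ofFinite M
  haveI : Fintype (M ⊓ (P : Subgroup G) : Subgroup G) := Fintype.ofFinite _
  haveI := Fintype.ofFinite (P : Subgroup G)
  have h0 := inf_sylow_eq_bot P hNn hN
  have hker := normal_le_ker P hNn hN hχ hd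
  have hPP : ⁅(P : Subgroup G), (P : Subgroup G)⁆ ≤ (P : Subgroup G) := Subgroup.commutator_le_self _
  -- M ∩ P ≤ P'
  have hdec : ∀ x ∈ M, ∃ n ∈ N, ∃ y ∈ ⁅(P : Subgroup G), (P : Subgroup G)⁆, n * y = x := by
    intro x hx
    have h1 := hMN hx
    have h2 : x ∈ ((N : Set G) * ((⁅(P : Subgroup G), (P : Subgroup G)⁆ : Subgroup G) : Set G)) := by
      rw [← Subgroup.normal_mul]; exact h1
    obtain ⟨n, hn, y, hy, rfl⟩ := h2
    exact ⟨n, hn, y, hy, rfl⟩
  have hMP : ∀ x ∈ M ⊓ (P : Subgroup G), x ∈ ⁅(P : Subgroup G), (P : Subgroup G)⁆ := by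
    intro x hx
    obtain ⟨hx1, hx2⟩ := Subgroup.mem_inf.mp hx
    obtain ⟨n, hn, y, hy, rfl⟩ := hdec x hx1
    have h1 : n ∈ N ⊓ (P : Subgroup G) := by
      refine Subgroup.mem_inf.mpr ⟨hn, ?_⟩
      have := mul_mem hx2 (inv_mem (hPP hy))
      rwa [mul_inv_cancel_right] at this
    rw [h0, Subgroup.mem_bot] at h1
    rw [h1, one_mul]
    exact hy
  apply le_ker_of_sum_ne hM hχ
  -- the bijection N × D ≃ M
  let F : N × (M ⊓ (P : Subgroup G) : Subgroup G) → M := fun z =>
    ⟨(z.1 : G) * (z.2 : G), mul_mem (hNM z.1.2) (Subgroup.mem_inf.mp z.2.2).1⟩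
  have hF : Function.Bijective F := by
    constructor
    · rintro ⟨n, y⟩ ⟨n', y'⟩ h
      have h1 : (n : G) * (y : G) = n' * y' := congrArg Subtype.val h
      have h2 : (n' : G)⁻¹ * n ∈ N ⊓ (P : Subgroup G) := by
        refine Subgroup.mem_inf.mpr ⟨mul_mem (inv_mem n'.2) n.2, ?_⟩
        have h3 : (n' : G)⁻¹ * n = y' * (y : G)⁻¹ := by
          rw [eq_mul_inv_iff_mul_eq, mul_assoc, h1, inv_mul_cancel_left]
        rw [h3]
        exact mul_mem (Subgroup.mem_inf.mp y'.2).2 (inv_mem (Subgroup.mem_inf.mp y.2).2)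
      rw [h0, Subgroup.mem_bot, inv_mul_eq_one] at h2
      have h4 : n = n' := Subtype.ext h2.symm
      rw [h4] at h1
      have h5 : y = y' := Subtype.ext (mul_left_cancel h1)
      rw [h4, h5]
    · rintro ⟨x, hx⟩
      obtain ⟨n, hn, y, hy, hxy⟩ := hdec x hx
      refine ⟨⟨⟨n, hn⟩, ⟨y, Subgroup.mem_inf.mpr ⟨?_, hPP hy⟩⟩⟩, Subtype.ext hxy⟩
      have h1 : y = n⁻¹ * x := by rw [← hxy, inv_mul_cancel_left]
      rw [h1]
      exact mul_mem (inv_mem (hNM hn)) hx
  have hsum : ∑ m : M, χ m = ∑ z : N × (M ⊓ (P : Subgroup G) : Subgroup G), χ (F z) :=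
    (hF.sum_comp (fun m : M => χ m)).symm
  have hsum2 : ∑ m : M, χ m = (Nat.card N : ℂ) * ∑ y : (M ⊓ (P : Subgroup G) : Subgroup G), χ y := by
    rw [hsum, Fintype.sum_prod_type]
    have h1 : ∀ n : N, ∑ y : (M ⊓ (P : Subgroup G) : Subgroup G), χ (F (n, y)) =
        ∑ y : (M ⊓ (P : Subgroup G) : Subgroup G), χ y := by
      intro n
      refine Finset.sum_congr rfl fun y _ => ?_
      exact (char_mul_of_ker (irr_isCharacter hχ) (hker n) y).1
    rw [Finset.sum_congr rfl fun n _ => h1 n, Finset.sum_const, Finset.card_univ, nsmul_eq_mul,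
      Nat.card_eq_fintype_card]
  rw [hsum2]
  refine mul_ne_zero (by exact_mod_cast Nat.card_pos.ne') ?_
  obtain ⟨f, r, hr, hfr⟩ := exists_linear_constituent P hχ hd
  have hDP : M ⊓ (P : Subgroup G) ≤ (P : Subgroup G) := inf_le_right
  have h1 : ∑ y : (M ⊓ (P : Subgroup G) : Subgroup G), χ y =
      (Nat.card (M ⊓ (P : Subgroup G) : Subgroup G) : ℂ) + ∑ y : (M ⊓ (P : Subgroup G) : Subgroup G), r (Subgroup.inclusion hDP y) := by
    have h2 : ∀ y : (M ⊓ (P : Subgroup G) : Subgroup G), χ y = 1 + r (Subgroup.inclusion hDP y) := by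
      intro y
      have h3 := congrFun hfr (Subgroup.inclusion hDP y)
      rw [Pi.add_apply] at h3
      have h4 : f (Subgroup.inclusion hDP y) = 1 := hom_commutator f (hMP y y.2) _
      simp only [h4, Units.val_one] at h3
      exact h3
    rw [Finset.sum_congr rfl fun y _ => h2 y, Finset.sum_add_distrib, Finset.sum_const, Finset.card_univ,
      nsmul_eq_mul, mul_one, Nat.card_eq_fintype_card]
  obtain ⟨k, hk⟩ := char_mult (isCharacter_comp hr (Subgroup.inclusion hDP)) (isCharacter_one (G := (M ⊓ (P : Subgroup G) : Subgroup G)))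
  rw [inner_one_right] at hk
  have hc0 : (Nat.card (M ⊓ (P : Subgroup G) : Subgroup G) : ℂ) ≠ 0 := by exact_mod_cast Nat.card_pos.ne'
  have h5 : ∑ y : (M ⊓ (P : Subgroup G) : Subgroup G), r (Subgroup.inclusion hDP y) =
      (Nat.card (M ⊓ (P : Subgroup G) : Subgroup G) : ℂ) * k := by
    rw [← hk, ← mul_assoc, mul_inv_cancel₀ hc0, one_mul]
    rfl
  rw [h1, h5]
  have h6 : (Nat.card (M ⊓ (P : Subgroup G) : Subgroup G) : ℂ) + (Nat.card (M ⊓ (P : Subgroup G) : Subgroup G) : ℂ) * k =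
      ((Nat.card (M ⊓ (P : Subgroup G) : Subgroup G) * (1 + k) : ℕ) : ℂ) := by push_cast; ring
  rw [h6]
  have h7 : 0 < Nat.card (M ⊓ (P : Subgroup G) : Subgroup G) * (1 + k) := Nat.mul_pos Nat.card_pos (by omega)
  exact_mod_cast h7.ne'

end D

section E
variable {G : Type u} [Group G] [Fintype G] {p : ℕ} [hp : Fact p.Prime]

/-- every character `η` of degree prime to p of a subgroup `U` of index prime to p, if irreducible, lies under
an irreducible character of `G` of degree prime to p -/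
theorem exists_above_pprime {U : Subgroup G} (hU : ¬ p ∣ U.index) {η : U → ℂ} (hη : IsIrrCharacter U η)
    (hd : ¬ p ∣ charDegree η) : ∃ (χ : G → ℂ) (r : U → ℂ), IsIrrCharacter G χ ∧ ¬ p ∣ charDegree χ ∧
      IsCharacter U r ∧ (fun u : U => χ u) = η + r := by
  haveI := Fintype.ofFinite U
  have h1 : indFun U η 1 = ((U.index * charDegree η : ℕ) : ℂ) := by
    rw [ind_one, irr_one_eq_charDegree hη]; push_cast; rfl
  obtain ⟨χ, hχ, hne⟩ := exists_pprime_constituent (isCharacter_ind U (irr_isCharacter hη)) h1 (by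
    intro h
    rcases (Nat.Prime.dvd_mul hp.out).mp h with h | h
    · exact hU h
    · exact hd h)
  rw [frobenius U η (irr_classFun χ.2)] at hne
  have hne' : classInner (fun u : U => (χ : G → ℂ) u) η ≠ 0 := fun h => hne (ci_zero_comm h)
  obtain ⟨r, hr, hr2⟩ := split_off (isCharacter_restrict (irr_isCharacter χ.2) U) hη hne'
  exact ⟨χ, r, χ.2, hχ, hr, hr2⟩

/-- consequence for elements in the kernel of all characters of degree prime to p -/
theorem ker_below {U : Subgroup G} (hU : ¬ p ∣ U.index) {η : U → ℂ} (hη : IsIrrCharacter U η)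
    (hd : ¬ p ∣ charDegree η) {x : G} (hxU : x ∈ U)
    (hx : ∀ χ : G → ℂ, IsIrrCharacter G χ → ¬ p ∣ charDegree χ → χ x = χ 1) : η ⟨x, hxU⟩ = η 1 := by
  obtain ⟨χ, r, hχ, hχd, hr, h⟩ := exists_above_pprime hU hη hd
  apply ker_of_add (irr_isCharacter hη) hr
  have h1 := congrFun h ⟨x, hxU⟩
  have h2 := congrFun h 1
  simp only [Pi.add_apply] at h1 h2
  rw [← h1, ← h2]
  exact hx χ hχ hχd

/-- B1 -/
theorem inf_le_commutator (P : Sylow p G) {x : G} (hxP : x ∈ (P : Subgroup G))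
    (hx : ∀ χ : G → ℂ, IsIrrCharacter G χ → ¬ p ∣ charDegree χ → χ x = χ 1) :
    x ∈ ⁅(P : Subgroup G), (P : Subgroup G)⁆ := by
  by_contra hcon
  have h1 : (Abelianization.of (⟨x, hxP⟩ : (P : Subgroup G))) ≠ 1 := by
    intro h
    apply hcon
    rw [← Subgroup.map_subtype_commutator]
    refine ⟨⟨x, hxP⟩, ?_, rfl⟩
    exact (QuotientGroup.eq_one_iff _).mp h
  obtain ⟨f, hf⟩ := exists_hom_ne_one (G := Abelianization (P : Subgroup G)) (fun a b => mul_comm a b) h1
  have h2 := ker_below (p := p) P.not_dvd_index (isIrrCharacter_hom (f.comp Abelianization.of)) (by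
    have h3 := irr_one_eq_charDegree (isIrrCharacter_hom (f.comp (Abelianization.of (G := (P : Subgroup G)))))
    rw [map_one, Units.val_one] at h3
    have h4 : charDegree (fun g => ((f.comp (Abelianization.of (G := (P : Subgroup G)))) g : ℂ)) = 1 := by
      exact_mod_cast h3.symm
    rw [h4]
    exact hp.out.one_lt.ne' ∘ Nat.dvd_one.mp) hxP hx
  apply hf
  apply Units.ext
  simp only [map_one, Units.val_one] at h2
  exact h2

/-- B3 : normal p'-subgroups in the kernel meet the centralizer of P trivially -/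
theorem inf_centralizer_eq_bot (P : Sylow p G) {L : Subgroup G} (hL : L.Normal) (hLp : ¬ p ∣ Nat.card L)
    (hx : ∀ x ∈ L, ∀ χ : G → ℂ, IsIrrCharacter G χ → ¬ p ∣ charDegree χ → χ x = χ 1) :
    L ⊓ Subgroup.centralizer ((P : Subgroup G) : Set G) = ⊥ := by
  classical
  haveI := Fintype.ofFinite L
  by_contra hne
  obtain ⟨θ, hθ, hinv, hθ1⟩ := exists_inv_nontrivial hL (P : Subgroup G) P.isPGroup' hLp hne
  obtain ⟨U, hU⟩ : ∃ U, U = L ⊔ (P : Subgroup G) := ⟨_, rfl⟩
  have hLU : L ≤ U := by rw [hU]; exact le_sup_left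
  have hPU : (P : Subgroup G) ≤ U := by rw [hU]; exact le_sup_right
  haveI hLn : (L.subgroupOf U).Normal := subgroupOf_normal hL U
  have hidx : ∃ k, (L.subgroupOf U).index = p ^ k := by
    have h1 := CfsgLib.SolvBasic.card_sup_of_normal L (P : Subgroup G)
    rw [← hU] at h1
    have h2 : Nat.card L * (L.subgroupOf U).index = Nat.card U := by
      rw [← Subgroup.card_mul_index (L.subgroupOf U), CfsgLib.SolvBasic.card_subgroupOf hLU]
    obtain ⟨k, hk⟩ := IsPGroup.iff_card.mp P.isPGroup'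
    have h3 : (L.subgroupOf U).index ∣ p ^ k := by
      rw [← hk]
      refine ⟨Nat.card (L ⊓ (P : Subgroup G) : Subgroup G), ?_⟩
      rw [← h2] at h1
      have h4 : Nat.card L * (Nat.card (P : Subgroup G)) = Nat.card L * ((L.subgroupOf U).index * Nat.card (L ⊓ (P : Subgroup G) : Subgroup G)) := by
        rw [← h1]; ring
      exact Nat.eq_of_mul_eq_mul_left Nat.card_pos h4
    obtain ⟨j, -, hj⟩ := (Nat.dvd_prime_pow hp.out).mp h3
    exact ⟨j, hj⟩
  obtain ⟨k, hk⟩ := hidx
  have hcop : (L.subgroupOf U).index.Coprime (Nat.card (L.subgroupOf U)) := by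
    rw [hk, CfsgLib.SolvBasic.card_subgroupOf hLU]
    exact Nat.Coprime.pow_left k ((Nat.Prime.coprime_iff_not_dvd hp.out).mpr hLp)
  have hθ' : IsIrrCharacter (L.subgroupOf U) (toSub U θ) := (toSub_irr hLU).mpr hθ
  have hU_inv : ∀ u ∈ U, cj hL u θ = θ := by
    intro u hu
    have h1 : U ≤ inertia hL θ := by
      rw [hU]
      exact sup_le (le_inertia hL (irr_classFun hθ)) (fun y hy => hinv y hy)
    exact h1 hu
  have hInv : CfsgLib.Extend.Inv (L.subgroupOf U) (toSub U θ) := by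
    intro g n
    have h1 := cj_toSub (T := U) hL g θ
    rw [hU_inv g g.2] at h1
    exact congrFun h1 n
  obtain ⟨d, -, hd⟩ := irr_one_nat hθ'
  obtain ⟨η, ⟨hη, hηr, -⟩, -⟩ := CfsgLib.Extend.ext_coprime hθ' hInv d hd
    (Nat.Coprime.mul_right (Nat.Coprime.coprime_dvd_right (CfsgLib.Extend.detOrder_dvd_card hθ') hcop)
      (Nat.Coprime.coprime_dvd_right (CfsgLib.Extend.degree_dvd_card hθ' hd) hcop))
  have hηd : charDegree η = d := by
    have h1 := hηr 1
    rw [hd] at h1
    have h2 : η 1 = (d : ℂ) := h1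
    rw [irr_one_eq_charDegree hη] at h2
    exact_mod_cast h2
  have hηp : ¬ p ∣ charDegree η := by
    rw [hηd]
    intro h
    apply hLp
    have := h.trans (CfsgLib.Extend.degree_dvd_card hθ' hd)
    rwa [CfsgLib.SolvBasic.card_subgroupOf hLU] at this
  have hker : ∀ l : L, θ l = θ 1 := by
    intro l
    have h1 := ker_below (p := p) (CfsgLib.FgSyl.not_dvd_index_of_le P hPU) hη hηp (hLU l.2) (hx l l.2)
    have h2 := hηr ⟨⟨l, hLU l.2⟩, Subgroup.mem_subgroupOf.mpr l.2⟩
    have h3 := hηr 1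
    have h4 : η ⟨l, hLU l.2⟩ = θ l := h2
    have h5 : η 1 = θ 1 := h3
    rw [← h4, ← h5]
    exact h1
  apply hθ1
  -- θ = θ(1)·1 irreducible
  have h6 : classInner θ (fun _ => 1) ≠ 0 := by
    rw [inner_one_right, Finset.sum_congr rfl fun l _ => hker l, Finset.sum_const, Finset.card_univ, nsmul_eq_mul,
      ← Nat.card_eq_fintype_card, ← mul_assoc, inv_mul_cancel₀ (by exact_mod_cast Nat.card_pos.ne'), one_mul]
    exact irr_one_ne_zero hθ
  by_contra h7
  exact h6 (irr_inner_ne hθ isIrrCharacter_one h7)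

/-- part B -/
theorem ker_le (P : Sylow p G) {N K : Subgroup G} (hK : K.Normal)
    (hmax : ∀ L : Subgroup G, L.Normal → L ⊓ Subgroup.centralizer ((P : Subgroup G) : Set G) = ⊥ → L ≤ N)
    (hx : ∀ x ∈ K, ∀ χ : G → ℂ, IsIrrCharacter G χ → ¬ p ∣ charDegree χ → χ x = χ 1) :
    K ≤ N ⊔ ⁅(P : Subgroup G), (P : Subgroup G)⁆ := by
  have h1 : (P : Subgroup G) ⊓ K ≤ ⁅(P : Subgroup G), (P : Subgroup G)⁆ := by
    intro x hxx
    obtain ⟨ha, hb⟩ := Subgroup.mem_inf.mp hxx
    exact inf_le_commutator P ha (hx x hb)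
  have h2 : K ⊓ (P : Subgroup G) ≤ (frattini (P : Subgroup G)).map (P : Subgroup G).subtype := by
    intro x hxx
    have h3 := h1 (by rwa [inf_comm] at hxx)
    rw [← Subgroup.map_subtype_commutator] at h3
    exact Subgroup.map_mono (CfsgLib.SolvFrat.commutator_le_frattini hp.out P.isPGroup') h3
  have h3 := CfsgLib.Tate.tate P K h2
  rw [CfsgLib.TransPC.hasNPC_iff] at h3
  obtain ⟨L₀, hL₀⟩ := h3
  haveI := hL₀.characteristic
  haveI hLn : (L₀.map K.subtype).Normal := ConjAct.normal_of_characteristic_of_normal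
  have hcard : Nat.card (L₀.map K.subtype) = Nat.card L₀ := Subgroup.card_map_of_injective K.subtype_injective
  have hLK : L₀.map K.subtype ≤ K := Subgroup.map_subtype_le _
  have hrel : ∃ n : ℕ, (L₀.map K.subtype).relIndex K = p ^ n := by
    obtain ⟨n, hn⟩ := hL₀.2.2
    refine ⟨n, ?_⟩
    have h4 : (L₀.map K.subtype).subgroupOf K = L₀ := Subgroup.comap_map_eq_self_of_injective K.subtype_injective L₀
    rw [Subgroup.relIndex, h4, hn]
  rw [CfsgLib.H2Misc.eq_sup_sylow_inf P hLK hrel]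
  refine sup_le (le_trans (hmax _ hLn ?_) le_sup_left) (le_trans h1 le_sup_right)
  apply inf_centralizer_eq_bot P hLn
  · rw [hcard]; exact hL₀.2.1
  · intro x hxL
    exact hx x (hLK hxL)

end E

end CfsgLib.FgKer
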