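import Cfsg.Agent.EqBase

/-! Groups with the same order type; counting elements by the primes of their orders. -/

set_option autoImplicit false
set_option linter.unusedSectionVars false
set_option linter.style.haveILetI false

namespace CfsgLib.FgOT

universe u v

open Subgroup

section equiv

variable {G : Type u} {H : Type v} [Group G] [Finite G] [Group H] [Finite H]

/-- Same order type gives an order preserving bijection. -/
theorem exists_equiv
    (hT : ∀ m : ℕ, Nat.card {g : G // orderOf g = m} = Nat.card {h : H // orderOf h = m}) :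
    ∃ e : G ≃ H, ∀ g, orderOf (e g) = orderOf g := by
  classical
  let E : ∀ m : ℕ, {g : G // orderOf g = m} ≃ {h : H // orderOf h = m} := fun m =>
    (Finite.equivFin _).trans ((finCongr (hT m)).trans (Finite.equivFin _).symm)
  refine ⟨(Equiv.sigmaFiberEquiv (orderOf : G → ℕ)).symm.trans
    ((Equiv.sigmaCongrRight E).trans (Equiv.sigmaFiberEquiv (orderOf : H → ℕ))), fun g => ?_⟩
  simp only [Equiv.trans_apply, Equiv.sigmaFiberEquiv, Equiv.coe_fn_symm_mk,
    Equiv.sigmaCongrRight_apply, Equiv.coe_fn_mk]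
  exact (E (orderOf g) ⟨g, rfl⟩).2

theorem card_eq
    (hT : ∀ m : ℕ, Nat.card {g : G // orderOf g = m} = Nat.card {h : H // orderOf h = m}) :
    Nat.card G = Nat.card H := by
  obtain ⟨e, -⟩ := exists_equiv hT
  exact Nat.card_congr e

theorem card_pred_eq
    (hT : ∀ m : ℕ, Nat.card {g : G // orderOf g = m} = Nat.card {h : H // orderOf h = m})
    (P : ℕ → Prop) :
    Nat.card {g : G // P (orderOf g)} = Nat.card {h : H // P (orderOf h)} := by
  obtain ⟨e, he⟩ := exists_equiv hT
  exact Nat.card_congr (e.subtypeEquiv (fun g => by rw [he g]))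

end equiv

/-- Number of elements all of whose order's prime divisors are at least `c`. -/
noncomputable def rc (c : ℕ) (G : Type u) [Group G] : ℕ :=
  Nat.card {g : G // ∀ q : ℕ, q.Prime → q ∣ orderOf g → c ≤ q}

/-- the part of `n` of the primes at least `c`. -/
noncomputable def rp (c n : ℕ) : ℕ := n.factorization.prod (fun q k => if c ≤ q then q ^ k else 1)

theorem rp_mul (c : ℕ) {m n : ℕ} (hm : m ≠ 0) (hn : n ≠ 0) : rp c (m * n) = rp c m * rp c n := by
  unfold rp
  rw [Nat.factorization_mul hm hn, Finsupp.prod_add_index']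
  · intro a; simp
  · intro a b₁ b₂
    split_ifs
    · exact pow_add _ _ _
    · simp

theorem rp_prime_pow (c : ℕ) {p : ℕ} (hp : p.Prime) (k : ℕ) :
    rp c (p ^ k) = if c ≤ p then p ^ k else 1 := by
  unfold rp
  rw [hp.factorization_pow, Finsupp.prod_single_index]
  simp

/-- `rp c n = 1` when all prime divisors are smaller than `c`. -/
theorem rp_eq_one (c n : ℕ) (h : ∀ q : ℕ, q.Prime → q ∣ n → q < c) : rp c n = 1 := by
  unfold rp
  refine Finset.prod_eq_one fun q hq => ?_
  have hq' := Nat.support_factorization n ▸ hq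
  have := h q (Nat.prime_of_mem_primeFactors hq') (Nat.dvd_of_mem_primeFactors hq')
  simp [not_le.mpr this]

variable {G : Type u} [Group G] [Finite G]

theorem rc_eq_one (c : ℕ) (h : ∀ q : ℕ, q.Prime → q ∣ Nat.card G → q < c) : rc c G = 1 := by
  unfold rc
  rw [Nat.card_eq_one_iff_unique]
  refine ⟨⟨fun a b => ?_⟩, ⟨⟨1, fun q hq hq1 => ?_⟩⟩⟩
  · have key : ∀ a : {g : G // ∀ q : ℕ, q.Prime → q ∣ orderOf g → c ≤ q}, a.1 = 1 := by
      intro a
      by_contra hne
      have h1 : orderOf a.1 ≠ 1 := fun h => hne (orderOf_eq_one_iff.mp h)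
      obtain ⟨q, hq, hqd⟩ := Nat.exists_prime_and_dvd h1
      exact absurd (a.2 q hq hqd) (not_le.mpr (h q hq (hqd.trans (orderOf_dvd_natCard _))))
    exact Subtype.ext ((key a).trans (key b).symm)
  · rw [orderOf_one] at hq1
    exact absurd (Nat.dvd_one.mp hq1) hq.one_lt.ne'

theorem card_preimage (N : Subgroup G) (P : G ⧸ N → Prop) :
    Nat.card {g : G // P (QuotientGroup.mk g)} = Nat.card N * Nat.card {x : G ⧸ N // P x} := by
  rw [← Nat.card_prod]
  exact Nat.card_congr (QuotientGroup.preimageMkEquivSubgroupProdSet N {x | P x})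

/-- The order modulo a normal `p`-subgroup. -/
theorem orderOf_mk_dvd (N : Subgroup G) [N.Normal] (g : G) :
    orderOf (QuotientGroup.mk g : G ⧸ N) ∣ orderOf g :=
  orderOf_map_dvd (QuotientGroup.mk' N) g

theorem orderOf_dvd_mul (N : Subgroup G) [N.Normal] (g : G) :
    orderOf g ∣ orderOf (QuotientGroup.mk g : G ⧸ N) * Nat.card N := by
  have h1 : g ^ orderOf (QuotientGroup.mk g : G ⧸ N) ∈ N := by
    rw [← QuotientGroup.eq_one_iff, QuotientGroup.mk_pow, pow_orderOf_eq_one]
  have h2 : (g ^ orderOf (QuotientGroup.mk g : G ⧸ N)) ^ Nat.card N = 1 := by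
    have h3 := pow_card_eq_one' (x := (⟨_, h1⟩ : N))
    exact congrArg Subtype.val h3
  rw [← pow_mul] at h2
  exact orderOf_dvd_of_pow_eq_one h2

theorem rc_quotient (c : ℕ) (N : Subgroup G) [N.Normal] {p : ℕ} (hp : p.Prime) {k : ℕ}
    (hN : Nat.card N = p ^ k) (hc : c ≤ p) : rc c G = Nat.card N * rc c (G ⧸ N) := by
  unfold rc
  rw [← card_preimage N (fun x => ∀ q : ℕ, q.Prime → q ∣ orderOf x → c ≤ q)]
  refine Nat.card_congr (Equiv.subtypeEquivRight fun g => ?_)
  constructor
  · intro h q hq hqd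
    exact h q hq (hqd.trans (orderOf_mk_dvd N g))
  · intro h q hq hqd
    have h1 := hqd.trans (orderOf_dvd_mul N g)
    rcases (Nat.Prime.dvd_mul hq).mp h1 with h2 | h2
    · exact h q hq h2
    · rw [hN] at h2
      have := (Nat.prime_dvd_prime_iff_eq hq hp).mp (hq.dvd_of_dvd_pow h2)
      rw [this]; exact hc

theorem rp_quotient (c : ℕ) (N : Subgroup G) {p : ℕ} (hp : p.Prime) {k : ℕ}
    (hN : Nat.card N = p ^ k) (hc : c ≤ p) :
    rp c (Nat.card G) = Nat.card N * rp c (Nat.card (G ⧸ N)) := by
  have h1 : Nat.card G = Nat.card N * Nat.card (G ⧸ N) := (card_mul_index N).symm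
  rw [h1, rp_mul c Nat.card_pos.ne' (Nat.card_pos (α := G ⧸ N)).ne']
  congr 1
  rw [hN, rp_prime_pow c hp, if_pos hc]

/-- If the number of `p`-elements is at most the order of a Sylow `p`-subgroup `P` then `P` is the set of
all `p`-elements. -/
theorem mem_sylow_of_card {p : ℕ} [Fact p.Prime] (P : Sylow p G) (Q : ℕ → Prop)
    (hQ : ∀ k, Q (p ^ k)) (h : Nat.card {g : G // Q (orderOf g)} ≤ p ^ (Nat.card G).factorization p)
    {g : G} (hg : Q (orderOf g)) : g ∈ P := by
  classical
  have h1 : ((P : Subgroup G) : Set G) ⊆ {g : G | Q (orderOf g)} := by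
    intro x hx
    obtain ⟨k, hk⟩ := (IsPGroup.iff_orderOf.mp P.isPGroup') ⟨x, hx⟩
    have : orderOf x = p ^ k := by rw [← hk]; exact (Subgroup.orderOf_mk x hx).symm
    change Q (orderOf x)
    rw [this]
    exact hQ k
  have h2 : ((P : Subgroup G) : Set G) = {g : G | Q (orderOf g)} := by
    refine Set.eq_of_subset_of_ncard_le h1 ?_ (Set.toFinite _)
    have h3 : ((P : Subgroup G) : Set G).ncard = Nat.card P := rfl
    have h4 : ({g : G | Q (orderOf g)} : Set G).ncard = Nat.card {g : G // Q (orderOf g)} := rfl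
    rw [h3, h4, P.card_eq_multiplicity]
    exact h
  have : g ∈ ((P : Subgroup G) : Set G) := by rw [h2]; exact hg
  exact this

theorem normal_of_card {p : ℕ} [Fact p.Prime] (P : Sylow p G) (Q : ℕ → Prop)
    (hQ : ∀ k, Q (p ^ k))
    (h : Nat.card {g : G // Q (orderOf g)} ≤ p ^ (Nat.card G).factorization p) :
    (P : Subgroup G).Normal := by
  have key : ∀ R : Sylow p G, R = P := by
    intro R
    apply Sylow.ext
    apply Subgroup.eq_of_le_of_card_ge
    · intro x hx
      obtain ⟨k, hk⟩ := (IsPGroup.iff_orderOf.mp R.isPGroup') ⟨x, hx⟩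
      have : orderOf x = p ^ k := by rw [← hk]; exact (Subgroup.orderOf_mk x hx).symm
      exact mem_sylow_of_card P Q hQ h (by rw [this]; exact hQ k)
    · rw [P.card_eq_multiplicity, R.card_eq_multiplicity]
  haveI : Subsingleton (Sylow p G) := ⟨fun a b => (key a).trans (key b).symm⟩
  haveI := P.characteristic_of_subsingleton
  infer_instance

/-- the number of p-elements -/
theorem card_pElements_of_normal {p : ℕ} [Fact p.Prime] (P : Sylow p G) [(P : Subgroup G).Normal] :
    Nat.card {g : G // ∃ k, orderOf g = p ^ k} = p ^ (Nat.card G).factorization p := by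
  rw [← P.card_eq_multiplicity]
  refine Nat.card_congr (Equiv.subtypeEquivRight fun g => ?_)
  constructor
  · rintro ⟨k, hk⟩
    have h1 : IsPGroup p (zpowers g) := by
      apply IsPGroup.of_card (n := k)
      rw [Nat.card_zpowers, hk]
    obtain ⟨Q, hQ⟩ := h1.exists_le_sylow
    haveI := Sylow.unique_of_normal P inferInstance
    have : Q = P := Subsingleton.elim _ _
    rw [← this]
    exact hQ (mem_zpowers g)
  · intro hg
    obtain ⟨k, hk⟩ := (IsPGroup.iff_orderOf.mp P.isPGroup') ⟨g, hg⟩
    exact ⟨k, by rw [← hk]; exact (Subgroup.orderOf_mk g hg).symm⟩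

end CfsgLib.FgOT
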