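import Mathlib

set_option autoImplicit false

/-! Finite `K`-sets with prescribed marks, and Burnside's theorem on marks (helper5). -/

namespace CfsgLib.FgPark
open Subgroup MulAction
open scoped Pointwise

universe u v w

section Marks

variable {K : Type u} [Group K] [Finite K]

/-- number of fixed points of `D₀` on `K ⧸ D` -/
noncomputable def tt (D D₀ : Subgroup K) : ℕ := Nat.card {x : K ⧸ D // ∀ d ∈ D₀, d • x = x}

/-- number of elements conjugating `D₀` into `D` -/
noncomputable def nn (D D₀ : Subgroup K) : ℕ := Nat.card {g : K // ∀ d ∈ D₀, g⁻¹ * d * g ∈ D}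

theorem nn_eq (D D₀ : Subgroup K) : nn D D₀ = tt D D₀ * Nat.card D := by
  classical
  have h : ∀ g : K, (∀ d ∈ D₀, g⁻¹ * d * g ∈ D) ↔ ∀ d ∈ D₀, d • (QuotientGroup.mk g : K ⧸ D) = QuotientGroup.mk g := by
    intro g
    refine forall₂_congr fun d _ => ?_
    rw [MulAction.Quotient.smul_mk, smul_eq_mul, eq_comm, QuotientGroup.eq, mul_assoc]
  rw [nn, tt, ← Nat.card_prod]
  refine Nat.card_congr ?_
  refine Equiv.trans (Equiv.subtypeEquivRight h) ?_
  refine Equiv.trans ((Subgroup.groupEquivQuotientProdSubgroup (s := D)).subtypeEquiv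
    (q := fun x : (K ⧸ D) × D => ∀ d ∈ D₀, d • x.1 = x.1) ?_) ?_
  · intro g
    rfl
  · exact
      { toFun := fun x => (⟨x.1.1, x.2⟩, x.1.2)
        invFun := fun x => ⟨(x.1.1, x.2), x.1.2⟩
        left_inv := fun _ => rfl
        right_inv := fun _ => rfl }

/-- conjugate subgroup `g⁻¹ D g` -/
def cj (g : K) (D : Subgroup K) : Subgroup K := D.map (MulAut.conj g⁻¹).toMonoidHom

theorem mem_cj {g : K} {D : Subgroup K} {x : K} : x ∈ cj g D ↔ ∃ d ∈ D, g⁻¹ * d * g = x := by
  constructor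
  · rintro ⟨d, hd, rfl⟩; exact ⟨d, hd, by simp⟩
  · rintro ⟨d, hd, rfl⟩; exact ⟨d, hd, by simp⟩

theorem card_cj (g : K) (D : Subgroup K) : Nat.card (cj g D) = Nat.card D :=
  (Nat.card_congr (D.equivMapOfInjective _ (MulAut.conj g⁻¹).injective).toEquiv).symm

theorem cj_le_iff {g : K} {D D₀ : Subgroup K} : cj g D₀ ≤ D ↔ ∀ d ∈ D₀, g⁻¹ * d * g ∈ D := by
  constructor
  · intro h d hd; exact h (mem_cj.2 ⟨d, hd, rfl⟩)
  · intro h x hx
    obtain ⟨d, hd, rfl⟩ := mem_cj.1 hx
    exact h d hd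

theorem tt_eq_zero_of_card {D D₀ : Subgroup K} (h : Nat.card D < Nat.card D₀) : tt D D₀ = 0 := by
  have h1 : nn D D₀ = 0 := by
    rw [nn, Nat.card_eq_zero]
    left
    constructor
    rintro ⟨g, hg⟩
    have := Subgroup.card_le_of_le (cj_le_iff.2 hg)
    rw [card_cj] at this
    omega
  rw [nn_eq] at h1
  exact (Nat.mul_eq_zero.1 h1).resolve_right Nat.card_pos.ne'

theorem tt_cj (D D₀ : Subgroup K) (g : K) : tt D (cj g D₀) = tt D D₀ := by
  have h1 : nn D (cj g D₀) = nn D D₀ := by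
    refine Nat.card_congr ?_
    refine (Equiv.mulLeft g).subtypeEquiv fun h => ?_
    constructor
    · intro H d hd
      have := H (g⁻¹ * d * g) (mem_cj.2 ⟨d, hd, rfl⟩)
      have e : (g * h)⁻¹ * d * (g * h) = h⁻¹ * (g⁻¹ * d * g) * h := by group
      show (g * h)⁻¹ * d * (g * h) ∈ D
      rw [e]; exact this
    · intro H d hd
      obtain ⟨d', hd', rfl⟩ := mem_cj.1 hd
      have := H d' hd'
      have e : (g * h)⁻¹ * d' * (g * h) = h⁻¹ * (g⁻¹ * d' * g) * h := by group
      have H2 : (g * h)⁻¹ * d' * (g * h) ∈ D := this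
      rw [e] at H2; exact H2
  rw [nn_eq, nn_eq] at h1
  exact Nat.eq_of_mul_eq_mul_right Nat.card_pos h1

theorem tt_mem {𝒟 : Set (Subgroup K)} (hsub : ∀ D ∈ 𝒟, ∀ D' ≤ D, D' ∈ 𝒟) (hconj : ∀ D ∈ 𝒟, ∀ k : K, cj k D ∈ 𝒟)
    {D D₀ : Subgroup K} (hD : D ∈ 𝒟) (h : tt D D₀ ≠ 0) : D₀ ∈ 𝒟 := by
  have h1 : nn D D₀ ≠ 0 := by
    rw [nn_eq]; exact mul_ne_zero h Nat.card_pos.ne'
  rw [nn, Nat.card_ne_zero] at h1
  obtain ⟨⟨g, hg⟩⟩ := h1.1
  have h2 := hsub D hD _ (cj_le_iff.2 hg)
  have h3 := hconj _ h2 g⁻¹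
  have h4 : cj g⁻¹ (cj g D₀) = D₀ := by
    ext x
    rw [mem_cj]
    constructor
    · rintro ⟨y, hy, rfl⟩
      obtain ⟨z, hz, rfl⟩ := mem_cj.1 hy
      have : g⁻¹⁻¹ * (g⁻¹ * z * g) * g⁻¹ = z := by group
      rw [this]; exact hz
    · intro hx
      exact ⟨g⁻¹ * x * g, mem_cj.2 ⟨x, hx, rfl⟩, by group⟩
  rwa [h4] at h3

open Classical in
theorem sum_tt (D₀ : Subgroup K) (c : Subgroup K → ℕ) (hc : ∀ g, c (cj g D₀) = c D₀) :
    letI := Fintype.ofFinite (Subgroup K)
    (∑ D : Subgroup K, if Nat.card D = Nat.card D₀ then Nat.card D₀ * c D * tt D D₀ else 0) = Nat.card K * c D₀ := by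
  letI := Fintype.ofFinite (Subgroup K)
  letI := Fintype.ofFinite K
  have h1 : ∀ D : Subgroup K, (if Nat.card D = Nat.card D₀ then Nat.card D₀ * c D * tt D D₀ else 0) =
      ∑ g : K, if cj g D₀ = D then c D₀ else 0 := by
    intro D
    by_cases h : Nat.card D = Nat.card D₀
    · rw [if_pos h]
      have h2 : ∀ g : K, (∀ d ∈ D₀, g⁻¹ * d * g ∈ D) ↔ cj g D₀ = D := by
        intro g
        rw [← cj_le_iff]
        constructor
        · intro h3
          exact Subgroup.eq_of_le_of_card_ge h3 (by rw [card_cj, h])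
        · intro h3; exact h3.le
      have h3 : nn D D₀ = Fintype.card {g : K // cj g D₀ = D} := by
        rw [nn, Nat.card_congr (Equiv.subtypeEquivRight h2), Nat.card_eq_fintype_card]
      rw [nn_eq, h] at h3
      rw [← Finset.sum_filter, Finset.sum_const, smul_eq_mul, ← Fintype.card_subtype, ← h3]
      by_cases h4 : tt D D₀ = 0
      · rw [h4]; simp
      · have h5 : ∃ g : K, cj g D₀ = D := by
          by_contra h5
          push Not at h5
          apply h4
          have : Fintype.card {g : K // cj g D₀ = D} = 0 := by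
            rw [Fintype.card_eq_zero_iff]
            exact ⟨fun x => h5 x.1 x.2⟩
          rw [this] at h3
          exact (Nat.mul_eq_zero.1 h3).resolve_right Nat.card_pos.ne'
        obtain ⟨g, hg⟩ := h5
        rw [← hg, hc g]
        ring
    · rw [if_neg h]
      symm
      apply Finset.sum_eq_zero
      intro g _
      rw [if_neg]
      intro h2
      apply h
      rw [← h2, card_cj]
  rw [Finset.sum_congr rfl (fun D _ => h1 D), Finset.sum_comm]
  have h2 : ∀ g : K, (∑ D : Subgroup K, if cj g D₀ = D then c D₀ else 0) = c D₀ := by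
    intro g
    rw [Finset.sum_ite_eq]
    simp
  rw [Finset.sum_congr rfl (fun g _ => h2 g), Finset.sum_const, smul_eq_mul, Finset.card_univ, Nat.card_eq_fintype_card]

open Classical in
/-- total number of fixed points -/
noncomputable def FF (m : Subgroup K → ℕ) (D₀ : Subgroup K) : ℕ :=
  letI := Fintype.ofFinite (Subgroup K)
  ∑ D : Subgroup K, m D * tt D D₀

theorem FF_def [Fintype (Subgroup K)] (m : Subgroup K → ℕ) (D₀ : Subgroup K) : FF m D₀ = ∑ D : Subgroup K, m D * tt D D₀ := by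
  unfold FF
  exact Finset.sum_congr (by ext; simp) fun _ _ => rfl

theorem FF_cj (m : Subgroup K → ℕ) (D₀ : Subgroup K) (g : K) : FF m (cj g D₀) = FF m D₀ := by
  unfold FF
  exact Finset.sum_congr rfl fun D _ => by rw [tt_cj]

open Classical in
theorem exists_mult (𝒟 : Set (Subgroup K)) (hsub : ∀ D ∈ 𝒟, ∀ D' ≤ D, D' ∈ 𝒟) (hconj : ∀ D ∈ 𝒟, ∀ k : K, cj k D ∈ 𝒟) :
    ∃ (m : Subgroup K → ℕ) (a : ℕ → ℕ), (∀ D, D ∉ 𝒟 → m D = 0) ∧
      ∀ D ∈ 𝒟, FF m D = a (Nat.card D) ∧ a (Nat.card D) ≠ 0 := by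
  letI := Fintype.ofFinite (Subgroup K)
  have key : ∀ j : ℕ, j ≤ Nat.card K + 1 → ∃ (m : Subgroup K → ℕ) (a : ℕ → ℕ), (∀ D, D ∉ 𝒟 → m D = 0) ∧
      ∀ D ∈ 𝒟, Nat.card K + 1 - j ≤ Nat.card D → FF m D = a (Nat.card D) ∧ a (Nat.card D) ≠ 0 := by
    intro j
    induction j with
    | zero =>
      intro _
      refine ⟨fun _ => 0, fun _ => 0, fun _ _ => rfl, ?_⟩
      intro D _ h
      have := Subgroup.card_le_card_group D
      omega
    | succ j ih =>
      intro hj
      obtain ⟨m, a, h1, h2⟩ := ih (by omega)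
      set k := Nat.card K + 1 - (j + 1) with hk
      -- bound
      obtain ⟨M, hM⟩ : ∃ M : ℕ, ∀ D, FF m D < M := by
        obtain ⟨D, hD⟩ := Finite.exists_max (FF m)
        exact ⟨FF m D + 1, fun D' => Nat.lt_succ_of_le (hD D')⟩
      let m' : Subgroup K → ℕ := fun D => Nat.card K * m D + if Nat.card D = k ∧ D ∈ 𝒟 then k * (M - FF m D) else 0
      refine ⟨m', fun i => if i = k then Nat.card K * M else Nat.card K * a i, ?_, ?_⟩
      · intro D hD
        simp only [m']
        rw [h1 D hD, if_neg (fun h => hD h.2), mul_zero]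
      · intro D₀ hD₀ hge
        have hFF : FF m' D₀ = Nat.card K * FF m D₀ +
            ∑ D : Subgroup K, (if Nat.card D = k ∧ D ∈ 𝒟 then k * (M - FF m D) * tt D D₀ else 0) := by
          rw [FF_def m' D₀, FF_def m D₀, Finset.mul_sum, ← Finset.sum_add_distrib]
          refine Finset.sum_congr rfl fun D _ => ?_
          simp only [m']
          split_ifs with h
          · ring
          · ring
        by_cases hk2 : Nat.card D₀ = k
        · have h3 := sum_tt D₀ (fun D => M - FF m D) (fun g => by rw [FF_cj])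
          have h4 : (∑ D : Subgroup K, (if Nat.card D = k ∧ D ∈ 𝒟 then k * (M - FF m D) * tt D D₀ else 0)) =
              Nat.card K * (M - FF m D₀) := by
            refine Eq.trans ?_ h3
            refine Finset.sum_congr rfl fun D _ => ?_
            by_cases h5 : Nat.card D = Nat.card D₀
            · rw [if_pos h5]
              by_cases h6 : D ∈ 𝒟
              · rw [if_pos ⟨h5.trans hk2, h6⟩, hk2]
              · rw [if_neg (fun h => h6 h.2)]
                have h7 : tt D D₀ = 0 := by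
                  by_contra h7
                  apply h6
                  have h8 : nn D D₀ ≠ 0 := by
                    rw [nn_eq]; exact mul_ne_zero h7 Nat.card_pos.ne'
                  rw [nn, Nat.card_ne_zero] at h8
                  obtain ⟨⟨g, hg⟩⟩ := h8.1
                  have h9 : cj g D₀ = D := Subgroup.eq_of_le_of_card_ge (cj_le_iff.2 hg) (by rw [card_cj, h5])
                  rw [← h9]; exact hconj _ hD₀ g
                rw [h7, mul_zero]
            · rw [if_neg h5, if_neg (fun h => h5 (h.1.trans hk2.symm))]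
          simp only [if_pos hk2]
          rw [hFF, h4, ← mul_add]
          have h5 : FF m D₀ + (M - FF m D₀) = M := by have := hM D₀; omega
          rw [h5]
          refine ⟨rfl, mul_ne_zero Nat.card_pos.ne' ?_⟩
          have := hM D₀; omega
        · have h3 := h2 D₀ hD₀ (by omega)
          simp only [if_neg hk2]
          rw [hFF, h3.1]
          refine ⟨?_, mul_ne_zero Nat.card_pos.ne' h3.2⟩
          have : ∑ D : Subgroup K, (if Nat.card D = k ∧ D ∈ 𝒟 then k * (M - FF m D) * tt D D₀ else 0) = 0 := by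
            apply Finset.sum_eq_zero
            intro D _
            split_ifs with h
            · rw [tt_eq_zero_of_card (by omega), mul_zero]
            · rfl
          rw [this, add_zero]
  obtain ⟨m, a, h1, h2⟩ := key (Nat.card K + 1) le_rfl
  exact ⟨m, a, h1, fun D hD => h2 D hD (by omega)⟩

/-- the `K`-set with multiplicities `m` -/
def XX (m : Subgroup K → ℕ) : Type u := Σ D : Subgroup K, Σ _ : Fin (m D), K ⧸ D

instance (m : Subgroup K → ℕ) : MulAction K (XX m) := inferInstanceAs (MulAction K (Σ D : Subgroup K, Σ _ : Fin (m D), K ⧸ D))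

instance (m : Subgroup K → ℕ) : Finite (XX m) := inferInstanceAs (Finite (Σ D : Subgroup K, Σ _ : Fin (m D), K ⧸ D))

theorem card_fix_XX (m : Subgroup K → ℕ) (D₀ : Subgroup K) : Nat.card {x : XX m // ∀ d ∈ D₀, d • x = x} = FF m D₀ := by
  classical
  letI := Fintype.ofFinite (Subgroup K)
  have e : {x : XX m // ∀ d ∈ D₀, d • x = x} ≃ Σ D : Subgroup K, Fin (m D) × {x : K ⧸ D // ∀ d ∈ D₀, d • x = x} :=
    { toFun := fun x => ⟨x.1.1, x.1.2.1, ⟨x.1.2.2, fun d hd => by
        have := x.2 d hd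
        rcases x with ⟨⟨D, i, y⟩, hx⟩
        have h1 : (⟨D, i, d • y⟩ : XX m) = ⟨D, i, y⟩ := this
        have h2 := eq_of_heq (Sigma.mk.inj_iff.1 h1).2
        exact eq_of_heq (Sigma.mk.inj_iff.1 h2).2⟩⟩
      invFun := fun x => ⟨⟨x.1, x.2.1, x.2.2.1⟩, fun d hd => by
        show (⟨x.1, x.2.1, d • x.2.2.1⟩ : XX m) = ⟨x.1, x.2.1, x.2.2.1⟩
        rw [x.2.2.2 d hd]⟩
      left_inv := fun _ => rfl
      right_inv := fun _ => rfl }
  rw [Nat.card_congr e, Nat.card_sigma]
  unfold FF tt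
  refine Finset.sum_congr rfl fun D _ => ?_
  rw [Nat.card_prod]
  simp

theorem exists_set (𝒟 : Set (Subgroup K)) (hsub : ∀ D ∈ 𝒟, ∀ D' ≤ D, D' ∈ 𝒟) (hconj : ∀ D ∈ 𝒟, ∀ k : K, cj k D ∈ 𝒟) :
    ∃ (X : Type u) (_ : Finite X) (_ : MulAction K X) (a : ℕ → ℕ),
      (∀ D ∈ 𝒟, Nat.card {x : X // ∀ d ∈ D, d • x = x} = a (Nat.card D) ∧ a (Nat.card D) ≠ 0) ∧
      ∀ D, D ∉ 𝒟 → Nat.card {x : X // ∀ d ∈ D, d • x = x} = 0 := by
  obtain ⟨m, a, h1, h2⟩ := exists_mult 𝒟 hsub hconj
  refine ⟨XX m, inferInstance, inferInstance, a, ?_, ?_⟩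
  · intro D hD
    rw [card_fix_XX]; exact h2 D hD
  · intro D hD
    rw [card_fix_XX]
    unfold FF
    apply Finset.sum_eq_zero
    intro D' _
    by_cases h : D' ∈ 𝒟
    · have : tt D' D = 0 := by
        by_contra h3
        exact hD (tt_mem hsub hconj h h3)
      rw [this, mul_zero]
    · rw [h1 D' h, zero_mul]

end Marks

end CfsgLib.FgPark
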