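import Mathlib
import Cfsg.Agent.LibFgPark

set_option autoImplicit false

/-! Burnside's theorem on marks (helper5). -/

namespace CfsgLib.FgPark
open Subgroup MulAction

universe u v w

theorem burnside_marks {L : Type u} [Group L] [Finite L] :
    ∀ (n : ℕ) (X : Type v) (Y : Type w) [Finite X] [Finite Y] [MulAction L X] [MulAction L Y], Nat.card X = n →
      (∀ H : Subgroup L, Nat.card {x : X // ∀ d ∈ H, d • x = x} = Nat.card {y : Y // ∀ d ∈ H, d • y = y}) →
      ∃ e : X ≃ Y, ∀ (k : L) (x : X), e (k • x) = k • e x := by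
  classical
  intro n
  induction n using Nat.strong_induction_on with
  | _ n ih =>
  intro X Y _ _ _ _ hn hm
  have htot : Nat.card X = Nat.card Y := by
    have h := hm ⊥
    have h1 : Nat.card {x : X // ∀ d ∈ (⊥ : Subgroup L), d • x = x} = Nat.card X :=
      Nat.card_congr (Equiv.subtypeUnivEquiv fun x d hd => by rw [mem_bot.1 hd, one_smul])
    have h2 : Nat.card {x : Y // ∀ d ∈ (⊥ : Subgroup L), d • x = x} = Nat.card Y :=
      Nat.card_congr (Equiv.subtypeUnivEquiv fun x d hd => by rw [mem_bot.1 hd, one_smul])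
    rw [h1, h2] at h; exact h
  rcases isEmpty_or_nonempty X with hX | hX
  · have hY : IsEmpty Y := by
      rw [← not_nonempty_iff]
      intro h
      have := Nat.card_pos (α := Y)
      rw [← htot] at this
      simp at this
    exact ⟨Equiv.equivOfIsEmpty X Y, fun k x => (hX.false x).elim⟩
  · -- choose a stabilizer of maximal order
    obtain ⟨x, hx⟩ := Finite.exists_max (fun x : X => Nat.card (stabilizer L x))
    set H := stabilizer L x with hH
    have hxfix : ∀ d ∈ H, d • x = x := fun d hd => mem_stabilizer_iff.1 hd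
    have hne : 0 < Nat.card {y : Y // ∀ d ∈ H, d • y = y} := by
      rw [← hm]
      rw [Nat.card_pos_iff]
      exact ⟨⟨⟨x, hxfix⟩⟩, inferInstance⟩
    obtain ⟨⟨y, hy⟩, -⟩ := Nat.card_pos_iff.1 hne
    have hyH : stabilizer L y = H := by
      have h1 : H ≤ stabilizer L y := fun d hd => mem_stabilizer_iff.2 (hy d hd)
      symm
      apply Subgroup.eq_of_le_of_card_ge h1
      -- find a point of `X` fixed by `stabilizer L y`
      have h2 : 0 < Nat.card {x : X // ∀ d ∈ stabilizer L y, d • x = x} := by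
        rw [hm, Nat.card_pos_iff]
        exact ⟨⟨⟨y, fun d hd => mem_stabilizer_iff.1 hd⟩⟩, inferInstance⟩
      obtain ⟨⟨x', hx'⟩, -⟩ := Nat.card_pos_iff.1 h2
      have h3 : stabilizer L y ≤ stabilizer L x' := fun d hd => mem_stabilizer_iff.2 (hx' d hd)
      exact (Subgroup.card_le_of_le h3).trans (hx x')
    -- the orbits
    have hstab : ∀ k l : L, k • x = l • x ↔ k • y = l • y := by
      intro k l
      have e1 : k • x = l • x ↔ l⁻¹ * k ∈ H := by
        rw [hH, mem_stabilizer_iff, mul_smul, inv_smul_eq_iff]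
      have e2 : k • y = l • y ↔ l⁻¹ * k ∈ H := by
        rw [← hyH, mem_stabilizer_iff, mul_smul, inv_smul_eq_iff]
      rw [e1, e2]
    -- complement sub-actions
    let X1 : SubMulAction L X :=
      { carrier := {z | ∀ k : L, k • x ≠ z}
        smul_mem' := by
          intro l z hz k h
          apply hz (l⁻¹ * k)
          rw [mul_smul, h, inv_smul_smul] }
    let Y1 : SubMulAction L Y :=
      { carrier := {z | ∀ k : L, k • y ≠ z}
        smul_mem' := by
          intro l z hz k h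
          apply hz (l⁻¹ * k)
          rw [mul_smul, h, inv_smul_smul] }
    let X0 : SubMulAction L X :=
      { carrier := {z | ∃ k : L, k • x = z}
        smul_mem' := by
          rintro l z ⟨k, rfl⟩
          exact ⟨l * k, mul_smul _ _ _⟩ }
    let Y0 : SubMulAction L Y :=
      { carrier := {z | ∃ k : L, k • y = z}
        smul_mem' := by
          rintro l z ⟨k, rfl⟩
          exact ⟨l * k, mul_smul _ _ _⟩ }
    let f : X0 → Y0 := fun z => ⟨z.2.choose • y, ⟨_, rfl⟩⟩
    have hf : ∀ k : L, f ⟨k • x, ⟨k, rfl⟩⟩ = ⟨k • y, ⟨k, rfl⟩⟩ := by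
      intro k
      apply Subtype.ext
      have := (⟨k, rfl⟩ : ∃ l : L, l • x = k • x).choose_spec
      exact (hstab _ _).1 this
    have hfbij : Function.Bijective f := by
      constructor
      · rintro ⟨_, k, rfl⟩ ⟨_, l, rfl⟩ h
        rw [hf, hf] at h
        exact Subtype.ext ((hstab _ _).2 (congrArg Subtype.val h))
      · rintro ⟨_, k, rfl⟩
        exact ⟨⟨k • x, ⟨k, rfl⟩⟩, hf k⟩
    let e0 : X0 ≃ Y0 := Equiv.ofBijective f hfbij
    have he0 : ∀ (k : L) (z : X0), e0 (k • z) = k • e0 z := by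
      rintro k ⟨_, l, rfl⟩
      have h1 : k • (⟨l • x, ⟨l, rfl⟩⟩ : X0) = ⟨(k * l) • x, ⟨k * l, rfl⟩⟩ := Subtype.ext (mul_smul _ _ _).symm
      rw [h1]
      show f _ = k • f _
      rw [hf, hf]
      exact Subtype.ext (mul_smul _ _ _)
    -- splitting
    have hsplit : ∀ (Z : Type v) [Finite Z] [MulAction L Z] (Z0 Z1 : SubMulAction L Z), (∀ z, z ∈ Z1 ↔ z ∉ Z0) →
        ∀ K : Subgroup L, Nat.card {z : Z // ∀ d ∈ K, d • z = z} =
          Nat.card {z : Z0 // ∀ d ∈ K, d • z = z} + Nat.card {z : Z1 // ∀ d ∈ K, d • z = z} := by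
      intro Z _ _ Z0 Z1 hc K
      rw [← Nat.card_sum]
      refine Nat.card_congr ?_
      refine ((Equiv.sumCompl (fun z : {z : Z // ∀ d ∈ K, d • z = z} => (z : Z) ∈ Z0)).symm).trans (Equiv.sumCongr ?_ ?_)
      · exact
          { toFun := fun z => ⟨⟨z.1.1, z.2⟩, fun d hd => Subtype.ext (z.1.2 d hd)⟩
            invFun := fun z => ⟨⟨z.1.1, fun d hd => congrArg Subtype.val (z.2 d hd)⟩, z.1.2⟩
            left_inv := fun _ => rfl
            right_inv := fun _ => rfl }
      · exact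
          { toFun := fun z => ⟨⟨z.1.1, (hc _).2 z.2⟩, fun d hd => Subtype.ext (z.1.2 d hd)⟩
            invFun := fun z => ⟨⟨z.1.1, fun d hd => congrArg Subtype.val (z.2 d hd)⟩, (hc _).1 z.1.2⟩
            left_inv := fun _ => rfl
            right_inv := fun _ => rfl }
    have hsplit' : ∀ (Z : Type w) [Finite Z] [MulAction L Z] (Z0 Z1 : SubMulAction L Z), (∀ z, z ∈ Z1 ↔ z ∉ Z0) →
        ∀ K : Subgroup L, Nat.card {z : Z // ∀ d ∈ K, d • z = z} =
          Nat.card {z : Z0 // ∀ d ∈ K, d • z = z} + Nat.card {z : Z1 // ∀ d ∈ K, d • z = z} := by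
      intro Z _ _ Z0 Z1 hc K
      rw [← Nat.card_sum]
      refine Nat.card_congr ?_
      refine ((Equiv.sumCompl (fun z : {z : Z // ∀ d ∈ K, d • z = z} => (z : Z) ∈ Z0)).symm).trans (Equiv.sumCongr ?_ ?_)
      · exact
          { toFun := fun z => ⟨⟨z.1.1, z.2⟩, fun d hd => Subtype.ext (z.1.2 d hd)⟩
            invFun := fun z => ⟨⟨z.1.1, fun d hd => congrArg Subtype.val (z.2 d hd)⟩, z.1.2⟩
            left_inv := fun _ => rfl
            right_inv := fun _ => rfl }
      · exact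
          { toFun := fun z => ⟨⟨z.1.1, (hc _).2 z.2⟩, fun d hd => Subtype.ext (z.1.2 d hd)⟩
            invFun := fun z => ⟨⟨z.1.1, fun d hd => congrArg Subtype.val (z.2 d hd)⟩, (hc _).1 z.1.2⟩
            left_inv := fun _ => rfl
            right_inv := fun _ => rfl }
    have hXc : ∀ z, z ∈ X1 ↔ z ∉ X0 := fun z => ⟨fun h ⟨k, hk⟩ => h k hk, fun h k hk => h ⟨k, hk⟩⟩
    have hYc : ∀ z, z ∈ Y1 ↔ z ∉ Y0 := fun z => ⟨fun h ⟨k, hk⟩ => h k hk, fun h k hk => h ⟨k, hk⟩⟩
    have hm0 : ∀ K : Subgroup L, Nat.card {z : X0 // ∀ d ∈ K, d • z = z} = Nat.card {z : Y0 // ∀ d ∈ K, d • z = z} := by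
      intro K
      refine Nat.card_congr (e0.subtypeEquiv fun z => ?_)
      refine forall₂_congr fun d _ => ?_
      rw [← he0]
      exact e0.injective.eq_iff.symm
    have hlt : Nat.card X1 < n := by
      rw [← hn]
      apply Finite.card_subtype_lt (x := x)
      intro h
      exact h 1 (one_smul _ _)
    obtain ⟨e1, he1⟩ := ih (Nat.card X1) hlt X1 Y1 rfl (by
      intro K
      have a1 := hsplit X X0 X1 hXc K
      have a2 := hsplit' Y Y0 Y1 hYc K
      have a3 := hm K
      have a4 := hm0 K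
      omega)
    -- glue
    let g : X → Y := fun z => if h : z ∈ X0 then (e0 ⟨z, h⟩ : Y) else (e1 ⟨z, (hXc z).2 h⟩ : Y)
    have g0 : ∀ (z : X0), g z = e0 z := fun z => dif_pos z.2
    have g1 : ∀ (z : X1), g z = e1 z := fun z => dif_neg ((hXc z).1 z.2)
    have hg : Function.Bijective g := by
      constructor
      · intro a b hab
        by_cases ha : a ∈ X0 <;> by_cases hb : b ∈ X0
        · have h1 : (e0 ⟨a, ha⟩ : Y) = e0 ⟨b, hb⟩ := by rw [← g0, ← g0]; exact hab
          exact congrArg Subtype.val (e0.injective (Subtype.ext h1))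
        · exfalso
          have h1 : (e0 ⟨a, ha⟩ : Y) = e1 ⟨b, (hXc b).2 hb⟩ := by rw [← g0, ← g1]; exact hab
          have h2 := (e1 ⟨b, (hXc b).2 hb⟩).2
          rw [← h1] at h2
          exact (hYc _).1 h2 (e0 ⟨a, ha⟩).2
        · exfalso
          have h1 : (e1 ⟨a, (hXc a).2 ha⟩ : Y) = e0 ⟨b, hb⟩ := by rw [← g0, ← g1]; exact hab
          have h2 := (e1 ⟨a, (hXc a).2 ha⟩).2
          rw [h1] at h2
          exact (hYc _).1 h2 (e0 ⟨b, hb⟩).2
        · have h1 : (e1 ⟨a, (hXc a).2 ha⟩ : Y) = e1 ⟨b, (hXc b).2 hb⟩ := by rw [← g1, ← g1]; exact hab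
          exact congrArg Subtype.val (e1.injective (Subtype.ext h1))
      · intro b
        by_cases hb : b ∈ Y0
        · obtain ⟨a, ha⟩ := e0.surjective ⟨b, hb⟩
          exact ⟨a, by rw [g0, ha]⟩
        · obtain ⟨a, ha⟩ := e1.surjective ⟨b, (hYc b).2 hb⟩
          exact ⟨a, by rw [g1, ha]⟩
    refine ⟨Equiv.ofBijective g hg, ?_⟩
    intro k z
    show g (k • z) = k • g z
    by_cases hz : z ∈ X0
    · have h1 := g0 (k • (⟨z, hz⟩ : X0))
      have h2 := g0 (⟨z, hz⟩ : X0)
      rw [he0] at h1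
      have h3 : g (k • z) = ((k • e0 ⟨z, hz⟩ : Y0) : Y) := h1
      have h4 : g z = (e0 ⟨z, hz⟩ : Y) := h2
      rw [h3, h4]; rfl
    · have h1 := g1 (k • (⟨z, (hXc z).2 hz⟩ : X1))
      have h2 := g1 (⟨z, (hXc z).2 hz⟩ : X1)
      rw [he1] at h1
      have h3 : g (k • z) = ((k • e1 ⟨z, (hXc z).2 hz⟩ : Y1) : Y) := h1
      have h4 : g z = (e1 ⟨z, (hXc z).2 hz⟩ : Y) := h2
      rw [h3, h4]; rfl

end CfsgLib.FgPark
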