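import Mathlib
import Cfsg.Agent.EqBase
import Cfsg.Agent.LibFgPark2

set_option autoImplicit false

/-! Park's theorem (helper5). -/

namespace CfsgLib.FgPark
open Subgroup MulAction Cfsg

universe u

variable {Ω : Type u} [Group Ω] {S : Subgroup Ω}

/-- graphs of maps of the fusion system -/
def GD (F : FusionSystem S) : Set (Subgroup (↥S × ↥S)) :=
  {D | ∃ (P : Subgroup Ω) (ψ : P →* Ω), ψ ∈ F.Hom P ∧
    ∀ u v : S, (u, v) ∈ D ↔ ∃ hu : (u : Ω) ∈ P, (v : Ω) = ψ ⟨u, hu⟩}

theorem res_mem (F : FusionSystem S) {P Q : Subgroup Ω} {ψ : P →* Ω} (hψ : ψ ∈ F.Hom P) (hQ : Q ≤ P) :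
    ψ.comp (Subgroup.inclusion hQ) ∈ F.Hom Q := by
  have hPS := (F.le_of_mem hψ).1
  have h1 : conjHom Q (1 : Ω) ∈ F.Hom Q := F.conj_mem (hQ.trans hPS) (one_mem S)
  have h2 : ∀ x : Q, conjHom Q (1 : Ω) x ∈ P := by
    intro x
    have : conjHom Q (1 : Ω) x = x := by simp [conjHom]
    rw [this]; exact hQ x.2
  have h3 := F.comp_mem h1 hψ h2
  convert h3 using 1
  ext x
  simp only [MonoidHom.comp_apply]
  congr 1
  apply Subtype.ext
  simp [conjHom]

theorem GD_sub (F : FusionSystem S) : ∀ D ∈ GD F, ∀ D' ≤ D, D' ∈ GD F := by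
  rintro D ⟨P, ψ, hψ, h⟩ D' hD'
  have hPS := (F.le_of_mem hψ).1
  let Q : Subgroup Ω := (D'.map (MonoidHom.fst _ _)).map S.subtype
  have hQ : ∀ x, x ∈ Q ↔ ∃ (u v : S), (u, v) ∈ D' ∧ (u : Ω) = x := by
    intro x
    constructor
    · rintro ⟨_, ⟨⟨u, v⟩, huv, rfl⟩, rfl⟩; exact ⟨u, v, huv, rfl⟩
    · rintro ⟨u, v, huv, rfl⟩; exact ⟨u, ⟨(u, v), huv, rfl⟩, rfl⟩
  have hQP : Q ≤ P := by
    intro x hx
    obtain ⟨u, v, huv, rfl⟩ := (hQ x).1 hx
    exact ((h u v).1 (hD' huv)).1
  refine ⟨Q, ψ.comp (Subgroup.inclusion hQP), res_mem F hψ hQP, ?_⟩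
  intro u v
  constructor
  · intro huv
    obtain ⟨h1, h2⟩ := (h u v).1 (hD' huv)
    exact ⟨(hQ _).2 ⟨u, v, huv, rfl⟩, h2⟩
  · rintro ⟨hu, hv⟩
    obtain ⟨u', v', huv', he⟩ := (hQ _).1 hu
    have hu' : u' = u := Subtype.ext he
    subst hu'
    obtain ⟨h1, h2⟩ := (h _ _).1 (hD' huv')
    have : v' = v := Subtype.ext (h2.trans hv.symm)
    rw [← this]; exact huv'

/-- composition with a map of `F` on the first coordinate -/
theorem GD_comp (F : FusionSystem S) {P : Subgroup Ω} {φ : P →* Ω} (hφ : φ ∈ F.Hom P)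
    {D D' : Subgroup (↥S × ↥S)} (hD : D ∈ GD F)
    (hfirst : ∀ u v : S, (u, v) ∈ D → (u : Ω) ∈ P)
    (h' : ∀ u v : S, (u, v) ∈ D' ↔ ∃ (w : S) (hw : (w : Ω) ∈ P), (w, v) ∈ D ∧ (u : Ω) = φ ⟨w, hw⟩) : D' ∈ GD F := by
  obtain ⟨R, ψ, hψ, h⟩ := hD
  have hRS := (F.le_of_mem hψ).1
  have hRv := (F.le_of_mem hψ).2
  have hRP : R ≤ P := by
    intro x hx
    exact hfirst ⟨x, hRS hx⟩ ⟨ψ ⟨x, hx⟩, hRv _⟩ ((h _ _).2 ⟨hx, rfl⟩)
  have h1 := res_mem F hφ hRP
  obtain ⟨χ, hχ, hχ2⟩ := F.inv_mem h1
  have h3 : ∀ y : (φ.comp (Subgroup.inclusion hRP)).range, χ y ∈ R := by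
    rintro ⟨_, x, rfl⟩
    rw [hχ2 x]; exact x.2
  refine ⟨(φ.comp (Subgroup.inclusion hRP)).range, ψ.comp (χ.codRestrict R h3), F.comp_mem hχ hψ h3, ?_⟩
  intro u v
  rw [h']
  constructor
  · rintro ⟨w, hw, hwv, huw⟩
    obtain ⟨h4, h5⟩ := (h _ _).1 hwv
    have h6 : (u : Ω) ∈ (φ.comp (Subgroup.inclusion hRP)).range := ⟨⟨w, h4⟩, huw.symm⟩
    refine ⟨h6, ?_⟩
    rw [h5]
    show ψ ⟨w, h4⟩ = ψ (χ.codRestrict R h3 ⟨u, h6⟩)
    congr 1
    apply Subtype.ext
    show (w : Ω) = χ ⟨u, h6⟩
    have h7 := hχ2 ⟨w, h4⟩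
    rw [← h7]
    congr 1
    exact Subtype.ext huw.symm
  · rintro ⟨⟨x, hx⟩, hv⟩
    have hxS : (x : Ω) ∈ S := hRS x.2
    refine ⟨⟨x, hxS⟩, hRP x.2, ?_, hx.symm⟩
    rw [h]
    refine ⟨x.2, ?_⟩
    rw [hv]
    show ψ (χ.codRestrict R h3 ⟨u, _⟩) = ψ ⟨x, _⟩
    congr 1
    apply Subtype.ext
    show χ ⟨u, _⟩ = (x : Ω)
    rw [← hχ2 x]
    congr 1
    exact Subtype.ext hx.symm

theorem GD_conj [Finite S] (F : FusionSystem S) : ∀ D ∈ GD F, ∀ k : ↥S × ↥S, cj k D ∈ GD F := by
  rintro D ⟨P, ψ, hψ, h⟩ ⟨a, b⟩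
  have hPS := (F.le_of_mem hψ).1
  have hPv := (F.le_of_mem hψ).2
  -- first the second coordinate
  have hcb : conjHom S ((b : Ω)⁻¹) ∈ F.Hom S := F.conj_mem le_rfl (inv_mem b.2)
  have h1 := F.comp_mem hψ hcb hPv
  let D1 : Subgroup (↥S × ↥S) := cj (1, b) D
  have hD1 : D1 ∈ GD F := by
    refine ⟨P, _, h1, ?_⟩
    intro u v
    show (u, v) ∈ cj (1, b) D ↔ _
    rw [mem_cj]
    constructor
    · rintro ⟨⟨u', v'⟩, huv, he⟩
      obtain ⟨h2, h3⟩ := (h _ _).1 huv
      have e1 : u' = u := by have := congrArg Prod.fst he; simpa using this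
      have e2 : b⁻¹ * v' * b = v := by have := congrArg Prod.snd he; simpa using this
      subst e1
      refine ⟨h2, ?_⟩
      rw [← e2]
      simp [conjHom, h3]
    · rintro ⟨hu, hv⟩
      refine ⟨(u, b * v * b⁻¹), ?_, ?_⟩
      · rw [h]
        refine ⟨hu, ?_⟩
        simp only [Subgroup.coe_mul, InvMemClass.coe_inv]
        rw [hv]
        simp [conjHom]
        group
      · apply Prod.ext
        · simp
        · simp [mul_assoc]
  have h2 : cj (a, b) D = cj (a, 1) D1 := by
    ext x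
    show x ∈ cj (a, b) D ↔ x ∈ cj (a, 1) (cj (1, b) D)
    rw [mem_cj, mem_cj]
    constructor
    · rintro ⟨d, hd, rfl⟩
      refine ⟨(1, b)⁻¹ * d * (1, b), mem_cj.2 ⟨d, hd, rfl⟩, ?_⟩
      apply Prod.ext <;> simp [mul_assoc]
    · rintro ⟨d, hd, rfl⟩
      obtain ⟨d', hd', rfl⟩ := mem_cj.1 hd
      refine ⟨d', hd', ?_⟩
      apply Prod.ext <;> simp [mul_assoc]
  rw [h2]
  have hca : conjHom S ((a : Ω)⁻¹) ∈ F.Hom S := F.conj_mem le_rfl (inv_mem a.2)
  refine GD_comp F hca hD1 (fun u v _ => u.2) ?_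
  intro u v
  rw [mem_cj]
  constructor
  · rintro ⟨⟨u', v'⟩, huv, he⟩
    have e1 : a⁻¹ * u' * a = u := by have := congrArg Prod.fst he; simpa using this
    have e2 : v' = v := by have := congrArg Prod.snd he; simpa using this
    subst e2
    refine ⟨u', u'.2, huv, ?_⟩
    rw [← e1]
    simp [conjHom]
  · rintro ⟨w, hw, hwv, huw⟩
    refine ⟨(w, v), hwv, ?_⟩
    apply Prod.ext
    · apply Subtype.ext
      simp only [Prod.fst_mul, Prod.fst_inv, Subgroup.coe_mul, InvMemClass.coe_inv]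
      rw [huw]
      simp [conjHom]
    · simp

theorem park [Finite S] (F : FusionSystem S) :
    ∃ (G : Type u) (_ : Group G) (_ : Finite G) (ι : ↥S →* G), F.IsRealizedBy ι := by
  classical
  obtain ⟨X, hXf, hXa, a, h1, h2⟩ := exists_set (K := ↥S × ↥S) (GD F) (GD_sub F) (GD_conj F)
  -- the right action
  let r : ↥S →* Equiv.Perm X := (MulAction.toPermHom (↥S × ↥S) X).comp (MonoidHom.inr _ _)
  let l : ↥S →* Equiv.Perm X := (MulAction.toPermHom (↥S × ↥S) X).comp (MonoidHom.inl _ _)
  have hl : ∀ (s : ↥S) (x : X), l s x = ((s, 1) : ↥S × ↥S) • x := fun _ _ => rfl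
  have hr : ∀ (s : ↥S) (x : X), r s x = ((1, s) : ↥S × ↥S) • x := fun _ _ => rfl
  let G : Subgroup (Equiv.Perm X) := centralizer (r.range : Set (Equiv.Perm X))
  have hlG : ∀ s, l s ∈ G := by
    intro s
    rw [mem_centralizer_iff]
    rintro _ ⟨t, rfl⟩
    ext x
    rw [Equiv.Perm.mul_apply, Equiv.Perm.mul_apply, hl, hr, hl, hr, ← mul_smul, ← mul_smul]
    simp
  have hG : ∀ g ∈ G, ∀ (s : ↥S) (x : X), g (((1, s) : ↥S × ↥S) • x) = ((1, s) : ↥S × ↥S) • g x := by
    intro g hg s x
    have := mem_centralizer_iff.1 hg (r s) ⟨s, rfl⟩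
    have h3 := congrArg (fun σ : Equiv.Perm X => σ x) this
    exact h3.symm
  let ι : ↥S →* G := l.codRestrict G hlG
  refine ⟨G, inferInstance, inferInstance, ι, ?_, ?_⟩
  · -- injectivity
    rw [injective_iff_map_eq_one]
    intro u hu
    have hu' : ∀ x : X, ((u, 1) : ↥S × ↥S) • x = x := by
      intro x
      have := congrArg (fun σ : G => (σ : Equiv.Perm X) x) hu
      exact this
    -- nonempty
    have hbot : (⊥ : Subgroup (↥S × ↥S)) ∈ GD F := by
      refine ⟨⊥, conjHom ⊥ 1, F.conj_mem bot_le (one_mem S), ?_⟩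
      intro u v
      rw [mem_bot]
      constructor
      · intro h
        have e1 : u = 1 := congrArg Prod.fst h
        have e2 : v = 1 := congrArg Prod.snd h
        subst e1; subst e2
        exact ⟨rfl, by simp [conjHom]⟩
      · rintro ⟨hu, hv⟩
        have e1 : u = 1 := Subtype.ext (mem_bot.1 hu)
        subst e1
        apply Prod.ext
        · rfl
        · apply Subtype.ext
          rw [hv]; simp [conjHom]
    have hne : Nonempty X := by
      have h3 := (h1 _ hbot)
      rw [← h3.1] at h3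
      have h4 := Nat.card_ne_zero.1 h3.2
      obtain ⟨⟨x, -⟩⟩ := h4.1
      exact ⟨x⟩
    obtain ⟨x⟩ := hne
    have hD : zpowers ((u, 1) : ↥S × ↥S) ∈ GD F := by
      by_contra hD
      have h3 := h2 _ hD
      rw [Nat.card_eq_zero] at h3
      rcases h3 with h3 | h3
      · refine h3.false ⟨x, ?_⟩
        intro d hd
        obtain ⟨k, rfl⟩ := hd
        have h4 : ((u, 1) : ↥S × ↥S) ∈ stabilizer (↥S × ↥S) x := hu' x
        exact zpow_mem h4 k
      · exact h3.not_finite inferInstance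
    obtain ⟨P, ψ, hψ, h3⟩ := hD
    obtain ⟨h4, h5⟩ := (h3 u 1).1 (mem_zpowers _)
    have h6 : ψ ⟨u, h4⟩ = ψ 1 := by rw [← h5, map_one]; rfl
    have h7 := F.injective_of_mem hψ h6
    have h8 : (u : Ω) = 1 := congrArg (fun z : ↥P => (z : Ω)) h7
    exact Subtype.ext h8
  · intro P hP φ hφ
    constructor
    · intro hφF
      -- two actions of `P × S`
      let f1 : ↥P × ↥S →* ↥S × ↥S := (Subgroup.inclusion hP).prodMap (MonoidHom.id _)
      let φ' : ↥P →* ↥S := φ.codRestrict S hφ
      let f2 : ↥P × ↥S →* ↥S × ↥S := φ'.prodMap (MonoidHom.id _)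
      have hφi := F.injective_of_mem hφF
      have hf1 : Function.Injective f1 := by
        rintro ⟨u, s⟩ ⟨u', s'⟩ h
        have e1 : Subgroup.inclusion hP u = Subgroup.inclusion hP u' := congrArg Prod.fst h
        have e2 : s = s' := congrArg Prod.snd h
        rw [Subgroup.inclusion_injective hP e1, e2]
      have hf2 : Function.Injective f2 := by
        rintro ⟨u, s⟩ ⟨u', s'⟩ h
        have e1 : φ' u = φ' u' := congrArg Prod.fst h
        have e2 : s = s' := congrArg Prod.snd h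
        have e3 : u = u' := hφi (congrArg Subtype.val e1)
        rw [e3, e2]
      haveI : Finite ↥P := Finite.of_injective _ (Subgroup.inclusion_injective hP)
      have hcard : ∀ (f : ↥P × ↥S →* ↥S × ↥S), Function.Injective f → ∀ H : Subgroup (↥P × ↥S),
          Nat.card (H.map f) = Nat.card H := fun f hf H =>
        (Nat.card_congr (H.equivMapOfInjective f hf).toEquiv).symm
      have hmem : ∀ H : Subgroup (↥P × ↥S), H.map f1 ∈ GD F ↔ H.map f2 ∈ GD F := by
        intro H
        constructor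
        · intro h
          refine GD_comp F hφF h ?_ ?_
          · rintro u v ⟨⟨u', s'⟩, -, he⟩
            have : Subgroup.inclusion hP u' = u := congrArg Prod.fst he
            rw [← this]; exact u'.2
          · intro u v
            constructor
            · rintro ⟨⟨u', s'⟩, hH, he⟩
              have e1 : φ' u' = u := congrArg Prod.fst he
              have e2 : s' = v := congrArg Prod.snd he
              refine ⟨Subgroup.inclusion hP u', u'.2, ⟨(u', s'), hH, ?_⟩, ?_⟩
              · rw [← e2]; rfl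
              · rw [← e1]; rfl
            · rintro ⟨w, hw, ⟨⟨u', s'⟩, hH, he⟩, hu⟩
              have e1 : Subgroup.inclusion hP u' = w := congrArg Prod.fst he
              have e2 : s' = v := congrArg Prod.snd he
              refine ⟨(u', s'), hH, ?_⟩
              apply Prod.ext
              · apply Subtype.ext
                show φ u' = u
                rw [hu]
                congr 1
                apply Subtype.ext
                show (u' : Ω) = w
                rw [← e1]; rfl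
              · exact e2
        · intro h
          obtain ⟨χ, hχ, hχ2⟩ := F.inv_mem hφF
          refine GD_comp F hχ h ?_ ?_
          · rintro u v ⟨⟨u', s'⟩, -, he⟩
            have : φ' u' = u := congrArg Prod.fst he
            rw [← this]; exact ⟨u', rfl⟩
          · intro u v
            constructor
            · rintro ⟨⟨u', s'⟩, hH, he⟩
              have e1 : Subgroup.inclusion hP u' = u := congrArg Prod.fst he
              have e2 : s' = v := congrArg Prod.snd he
              refine ⟨φ' u', ⟨u', rfl⟩, ⟨(u', s'), hH, ?_⟩, ?_⟩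
              · rw [← e2]; rfl
              · rw [← e1]; exact (hχ2 u').symm
            · rintro ⟨w, hw, ⟨⟨u', s'⟩, hH, he⟩, hu⟩
              have e1 : φ' u' = w := congrArg Prod.fst he
              have e2 : s' = v := congrArg Prod.snd he
              refine ⟨(u', s'), hH, ?_⟩
              apply Prod.ext
              · apply Subtype.ext
                show (u' : Ω) = u
                rw [hu, ← hχ2 u']
                congr 1
                apply Subtype.ext
                show φ u' = w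
                rw [← e1]; rfl
              · exact e2
      -- marks
      have hmark : ∀ D D' : Subgroup (↥S × ↥S), (D ∈ GD F ↔ D' ∈ GD F) → Nat.card D = Nat.card D' →
          Nat.card {x : X // ∀ d ∈ D, d • x = x} = Nat.card {x : X // ∀ d ∈ D', d • x = x} := by
        intro D D' hDD hc
        by_cases hD : D ∈ GD F
        · rw [(h1 D hD).1, (h1 D' (hDD.1 hD)).1, hc]
        · rw [h2 D hD, h2 D' (fun h => hD (hDD.2 h))]
      have hB := @burnside_marks (↥P × ↥S) _ _ (Nat.card X) X X hXf hXf (MulAction.compHom X f1) (MulAction.compHom X f2) rfl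
        (by
          intro H
          have e := hmark (H.map f1) (H.map f2) (hmem H) (by rw [hcard f1 hf1, hcard f2 hf2])
          have c1 : Nat.card {x : X // ∀ d ∈ H, (f1 d) • x = x} = Nat.card {x : X // ∀ d ∈ H.map f1, d • x = x} :=
            Nat.card_congr (Equiv.subtypeEquivRight fun x =>
              ⟨by rintro h _ ⟨d, hd, rfl⟩; exact h d hd, fun h d hd => h _ ⟨d, hd, rfl⟩⟩)
          have c2 : Nat.card {x : X // ∀ d ∈ H, (f2 d) • x = x} = Nat.card {x : X // ∀ d ∈ H.map f2, d • x = x} :=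
            Nat.card_congr (Equiv.subtypeEquivRight fun x =>
              ⟨by rintro h _ ⟨d, hd, rfl⟩; exact h d hd, fun h d hd => h _ ⟨d, hd, rfl⟩⟩)
          exact (c1.trans e).trans c2.symm)
      obtain ⟨e, he⟩ := hB
      have he' : ∀ (k : ↥P × ↥S) (x : X), e (f1 k • x) = f2 k • e x := he
      have heG : (e : Equiv.Perm X) ∈ G := by
        rw [mem_centralizer_iff]
        rintro _ ⟨t, rfl⟩
        ext x
        rw [Equiv.Perm.mul_apply, Equiv.Perm.mul_apply, hr, hr]
        have := he' (1, t) x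
        have e1 : f1 (1, t) = (1, t) := by
          apply Prod.ext
          · exact map_one (Subgroup.inclusion hP)
          · rfl
        have e2 : f2 (1, t) = (1, t) := by
          apply Prod.ext
          · exact map_one φ'
          · rfl
        rw [e1, e2] at this
        exact this.symm
      refine ⟨⟨e, heG⟩, ?_⟩
      intro x
      rw [eq_mul_inv_iff_mul_eq]
      apply Subtype.ext
      apply Equiv.ext
      intro y
      have := he' (x, 1) y
      exact this.symm
    · rintro ⟨⟨g, hg⟩, hgφ⟩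
      have hgφ' : ∀ (u : ↥P) (x : X), g (((⟨u, hP u.2⟩, 1) : ↥S × ↥S) • x) = ((⟨φ u, hφ u⟩, 1) : ↥S × ↥S) • g x := by
        intro u x
        have h3 := hgφ u
        rw [eq_mul_inv_iff_mul_eq] at h3
        have h4 := congrArg (fun σ : G => (σ : Equiv.Perm X) x) h3
        exact h4.symm
      -- the diagonal
      let dg : ↥P →* ↥S × ↥S := (Subgroup.inclusion hP).prod (Subgroup.inclusion hP)
      let dg' : ↥P →* ↥S × ↥S := (φ.codRestrict S hφ).prod (Subgroup.inclusion hP)
      have hD : dg.range ∈ GD F := by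
        refine ⟨P, conjHom P 1, F.conj_mem hP (one_mem S), ?_⟩
        intro u v
        constructor
        · rintro ⟨w, hw⟩
          have e1 : Subgroup.inclusion hP w = u := congrArg Prod.fst hw
          have e2 : Subgroup.inclusion hP w = v := congrArg Prod.snd hw
          rw [← e2, ← e1]
          exact ⟨w.2, by simp [conjHom]⟩
        · rintro ⟨hu, hv⟩
          refine ⟨⟨u, hu⟩, ?_⟩
          apply Prod.ext
          · rfl
          · apply Subtype.ext
            rw [hv]; simp [dg, conjHom]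
      have h3 := h1 _ hD
      rw [← h3.1] at h3
      obtain ⟨⟨x, hx⟩⟩ := (Nat.card_ne_zero.1 h3.2).1
      have hgx : ∀ d ∈ dg'.range, d • g x = g x := by
        rintro _ ⟨u, rfl⟩
        have e1 : dg' u = (⟨φ u, hφ u⟩, 1) * (1, ⟨u, hP u.2⟩) := by
          apply Prod.ext
          · exact (mul_one _).symm
          · exact (one_mul _).symm
        rw [e1, mul_smul, ← hG g hg, ← hgφ', ← mul_smul]
        congr 1
        have e2 : (((⟨u, hP u.2⟩, 1) * (1, ⟨u, hP u.2⟩) : ↥S × ↥S)) = dg u := by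
          apply Prod.ext
          · exact mul_one _
          · exact one_mul _
        rw [e2]
        exact hx _ ⟨u, rfl⟩
      have hD' : dg'.range ∈ GD F := by
        by_contra hD'
        have h4 := h2 _ hD'
        rw [Nat.card_eq_zero] at h4
        rcases h4 with h4 | h4
        · exact h4.false ⟨g x, hgx⟩
        · exact h4.not_finite inferInstance
      obtain ⟨Q, ψ, hψ, h4⟩ := hD'
      -- `ψ (φ u) = u`
      have h5 : ∀ u : ↥P, ∃ hu : φ u ∈ Q, (u : Ω) = ψ ⟨φ u, hu⟩ := by
        intro u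
        exact (h4 ⟨φ u, hφ u⟩ ⟨u, hP u.2⟩).1 ⟨u, rfl⟩
      have h6 : ∀ y : ↥Q, ∃ u : ↥P, φ u = y := by
        intro y
        have hyS := (F.le_of_mem hψ).1 y.2
        obtain ⟨w, hw⟩ := (h4 ⟨y, hyS⟩ ⟨ψ y, (F.le_of_mem hψ).2 y⟩).2 ⟨y.2, rfl⟩
        exact ⟨w, congrArg Subtype.val (congrArg Prod.fst hw : φ.codRestrict S hφ w = _)⟩
      have hrange : ψ.range = P := by
        ext z
        constructor
        · rintro ⟨y, rfl⟩
          obtain ⟨u, hu⟩ := h6 y
          obtain ⟨h7, h8⟩ := h5 u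
          have : y = ⟨φ u, h7⟩ := Subtype.ext hu.symm
          rw [this, ← h8]; exact u.2
        · intro hz
          obtain ⟨h7, h8⟩ := h5 ⟨z, hz⟩
          exact ⟨_, h8.symm⟩
      obtain ⟨χ, hχ, hχ2⟩ := F.inv_mem hψ
      subst hrange
      have : φ = χ := by
        ext ⟨_, y, rfl⟩
        have h9 := hχ2 y
        rw [h9]
        obtain ⟨u, hu⟩ := h6 y
        obtain ⟨h7, h8⟩ := h5 u
        have e1 : y = ⟨φ u, h7⟩ := Subtype.ext hu.symm
        have e2 : u = ⟨ψ y, ⟨y, rfl⟩⟩ := Subtype.ext (by rw [h8, e1])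
        rw [← hu, e2]
      rw [this]; exact hχ

end CfsgLib.FgPark
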