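import Cfsg.Agent.LibFgAct
import Cfsg.Agent.LibFgClass
import Cfsg.Agent.LibCoprime
import Cfsg.Agent.LibSolvBasic

/-! `π`-elements forming a subgroup; `π`-separable groups. -/

set_option autoImplicit false
set_option linter.style.haveILetI false
set_option linter.unusedSectionVars false

namespace CfsgLib.FgPi

open Subgroup Pointwise

universe u

/-- all prime divisors of `n` are in `π` -/
def PiN (π : Set ℕ) (n : ℕ) : Prop := ∀ q : ℕ, q.Prime → q ∣ n → q ∈ π

theorem PiN.mul {π : Set ℕ} {a b : ℕ} (ha : PiN π a) (hb : PiN π b) : PiN π (a * b) := by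
  intro q hq hd
  rcases (Nat.Prime.dvd_mul hq).mp hd with h | h
  · exact ha q hq h
  · exact hb q hq h

theorem PiN.dvd {π : Set ℕ} {a b : ℕ} (hb : PiN π b) (h : a ∣ b) : PiN π a := fun q hq hd => hb q hq (hd.trans h)

theorem PiN.coprime {π : Set ℕ} {a b : ℕ} (ha : PiN π a) (hb : PiN πᶜ b) : a.Coprime b :=
  Nat.coprime_of_dvd (fun q hq h1 h2 => hb q hq h2 (ha q hq h1))

theorem PiN.pow {π : Set ℕ} {q : ℕ} (hq : q.Prime) (h : q ∈ π) (k : ℕ) : PiN π (q ^ k) := by
  intro r hr hd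
  have := (Nat.prime_dvd_prime_iff_eq hr hq).mp (hr.dvd_of_dvd_pow hd)
  rw [this]; exact h

theorem PiN.prime_pow' {π : Set ℕ} {q : ℕ} (hq : q.Prime) (h : q ∉ π) (k : ℕ) : PiN πᶜ (q ^ k) :=
  PiN.pow (π := πᶜ) hq h k

/-- for a prime dividing the order of a group there is an element of that order -/
theorem piN_card {G : Type u} [Group G] [Finite G] {π : Set ℕ} (K : Subgroup G)
    (h : ∀ x ∈ K, PiN π (orderOf x)) : PiN π (Nat.card K) := by
  intro q hq hd
  haveI : Fact q.Prime := ⟨hq⟩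
  obtain ⟨x, hx⟩ := exists_prime_orderOf_dvd_card' q hd
  apply h x x.2 q hq
  rw [Subgroup.orderOf_coe, hx]

theorem piN_orderOf {G : Type u} [Group G] [Finite G] {π : Set ℕ} {K : Subgroup G} (h : PiN π (Nat.card K))
    {x : G} (hx : x ∈ K) : PiN π (orderOf x) := by
  apply h.dvd
  have := orderOf_dvd_natCard (⟨x, hx⟩ : K)
  rwa [Subgroup.orderOf_mk] at this

/-- elements whose image has `π`-order modulo a `π`-subgroup -/
theorem piN_of_mk {G : Type u} [Group G] [Finite G] {π : Set ℕ} (N : Subgroup G) [N.Normal] (hN : PiN π (Nat.card N))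
    {x : G} (hx : PiN π (orderOf (QuotientGroup.mk' N x))) : PiN π (orderOf x) := by
  apply (hx.mul hN).dvd
  have h1 : x ^ orderOf (QuotientGroup.mk' N x) ∈ N := by
    rw [← QuotientGroup.eq_one_iff]
    change QuotientGroup.mk' N (x ^ _) = 1
    rw [map_pow, pow_orderOf_eq_one]
  apply orderOf_dvd_of_pow_eq_one
  rw [pow_mul]
  have := pow_card_eq_one' (x := (⟨_, h1⟩ : N))
  exact congrArg Subtype.val this

theorem piN_mk {G : Type u} [Group G] [Finite G] {π : Set ℕ} (N : Subgroup G) [N.Normal]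
    {x : G} (hx : PiN π (orderOf x)) : PiN π (orderOf (QuotientGroup.mk' N x)) := hx.dvd (orderOf_map_dvd _ x)

/-- the subgroup of `π`-elements -/
theorem of_piElements {G : Type u} [Group G] [Finite G] {π : Set ℕ} (K : Subgroup G)
    (hK : ∀ x, x ∈ K ↔ PiN π (orderOf x)) : K.Normal ∧ PiN π (Nat.card K) ∧ PiN πᶜ K.index := by
  have hn : K.Normal := ⟨fun x hx g => by
    rw [hK, CfsgLib.FgBas.orderOf_conj]; exact (hK x).mp hx⟩
  refine ⟨hn, piN_card K (fun x hx => (hK x).mp hx), ?_⟩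
  intro q hq hd hqπ
  haveI : Fact q.Prime := ⟨hq⟩
  haveI := hn
  have hd' : q ∣ Nat.card (G ⧸ K) := hd
  obtain ⟨x, hx⟩ := exists_prime_orderOf_dvd_card' q hd'
  obtain ⟨x, rfl⟩ := QuotientGroup.mk'_surjective K x
  obtain ⟨a, b, ha, hb, hab, hba, ⟨k, hk⟩, hbp⟩ := CfsgLib.FgElt.exists_p_decomp hq x
  have haK : a ∈ K := (hK a).mpr (hk ▸ PiN.pow hq hqπ k)
  have h1 : QuotientGroup.mk' K x = QuotientGroup.mk' K b := by
    rw [← hab, map_mul]
    have : QuotientGroup.mk' K a = 1 := (QuotientGroup.eq_one_iff _).mpr haK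
    rw [this, one_mul]
  have h2 : orderOf (QuotientGroup.mk' K b) ∣ orderOf b := orderOf_map_dvd _ b
  rw [← h1, hx] at h2
  have h3 := Nat.dvd_gcd h2 (dvd_refl q)
  rw [hbp] at h3
  exact hq.one_lt.ne' (Nat.dvd_one.mp h3)

/-- `π`-elements normalizing a `q`-subgroup, `q ∉ π`, centralize it -/
def Star (π : Set ℕ) (G : Type u) [Group G] : Prop :=
  ∀ q : ℕ, q.Prime → q ∉ π → ∀ Q : Subgroup G, IsPGroup q Q → ∀ t : G, PiN π (orderOf t) →
    t ∈ normalizer (Q : Set G) → t ∈ centralizer (Q : Set G)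

theorem star_of_hom {G : Type u} [Group G] [Finite G] {π : Set ℕ}
    (h : ∀ H : Subgroup G, H ≠ ⊥ → (∀ p : ℕ, p.Prime → p ∣ Nat.card ↥H → p ∉ π) →
        ∀ p : ℕ, p.Prime → p ∣ (Subgroup.centralizer (H : Set G)).relIndex (Subgroup.normalizer (H : Set G)) → p ∉ π) :
    Star π G := by
  intro q hq hqπ Q hQ t ht htn
  haveI : Fact q.Prime := ⟨hq⟩
  by_cases hne : Q = ⊥
  · rw [hne, mem_centralizer_iff]
    intro y hy
    have : y = 1 := by simpa using hy
    rw [this, one_mul, mul_one]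
  · have h1 : PiN πᶜ ((centralizer (Q : Set G)).relIndex (normalizer (Q : Set G))) := by
      intro p hp hd
      refine h Q hne ?_ p hp hd
      obtain ⟨k, hk⟩ := IsPGroup.iff_card.mp hQ
      rw [hk]
      exact PiN.prime_pow' hq hqπ k
    have h2 : (⟨t, htn⟩ : normalizer (Q : Set G)) ∈ (centralizer (Q : Set G)).subgroupOf (normalizer (Q : Set G)) := by
      apply CfsgLib.FgBas.mem_of_pow_mem (pow_index_mem _ _)
      rw [Subgroup.orderOf_mk]
      exact ht.coprime h1
    exact h2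

theorem Star.quotient {G : Type u} [Group G] [Finite G] {π : Set ℕ} (h : Star π G) (N : Subgroup G) [N.Normal]
    (hN : PiN π (Nat.card N)) : Star π (G ⧸ N) := by
  intro q hq hqπ Q hQ t ht htn
  haveI : Fact q.Prime := ⟨hq⟩
  obtain ⟨t, rfl⟩ := QuotientGroup.mk'_surjective N t
  let mk := QuotientGroup.mk' N
  have hmk : Function.Surjective mk := QuotientGroup.mk'_surjective N
  let M := Q.comap mk
  have hNM : N ≤ M := by
    intro x hx
    change mk x ∈ Q
    have : mk x = 1 := (QuotientGroup.eq_one_iff _).mpr hx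
    rw [this]; exact one_mem Q
  obtain ⟨k, hk⟩ := IsPGroup.iff_card.mp hQ
  have hrel : N.relIndex M = Nat.card Q := by
    have h1 := CfsgLib.SolvBasic.card_comap_mk' N Q
    have h2 := CfsgLib.Coprime.card_mul_relIndex hNM
    rw [h1, mul_comm] at h2
    exact Nat.eq_of_mul_eq_mul_right Nat.card_pos h2
  have hcopQ : (Nat.card N).Coprime (N.relIndex M) := by
    rw [hrel, hk]; exact hN.coprime (PiN.prime_pow' hq hqπ k)
  obtain ⟨B, hBM, hBc, hNB, hNB2⟩ := CfsgLib.Coprime.sz_exists hNM (by rw [normalizer_eq_top]; exact le_top) hcopQ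
  have hBp : IsPGroup q B := IsPGroup.of_card (n := k) (by rw [hBc, hrel, hk])
  have hcop : (Nat.card B).Coprime (Nat.card N) := by rw [hBc]; exact hcopQ.symm
  have hBQ : B.map mk = Q := by
    have h1 : (N ⊔ B).map mk = Q := by
      rw [hNB2]; exact Subgroup.map_comap_eq_self_of_surjective hmk Q
    rwa [Subgroup.map_sup, QuotientGroup.map_mk'_self, bot_sup_eq] at h1
  -- conjugate
  have htM : (B.map (MulAut.conj t).toMonoidHom) ≤ N ⊔ B := by
    rw [hNB2]
    rintro _ ⟨b, hb, rfl⟩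
    change mk (t * b * t⁻¹) ∈ Q
    rw [map_mul, map_mul, map_inv]
    exact (mem_normalizer_iff.mp htn (mk b)).mp (hBM hb)
  obtain ⟨n, hn, hnx⟩ := CfsgLib.Coprime.sz_conj (N := N) (H := B) (K := B.map (MulAut.conj t).toMonoidHom)
    (by rw [normalizer_eq_top]; exact le_top) hcop (Or.inl (by
      haveI := hBp.isNilpotent
      infer_instance)) htM
    (card_map_of_injective (MulAut.conj t).injective)
  have hs : n⁻¹ * t ∈ normalizer (B : Set G) := by
    rw [mem_normalizer_iff_map_conj_eq]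
    have h1 : (MulAut.conj (n⁻¹ * t)).toMonoidHom = (MulAut.conj n⁻¹).toMonoidHom.comp (MulAut.conj t).toMonoidHom := by
      refine MonoidHom.ext (fun y => ?_)
      change (n⁻¹ * t) * y * (n⁻¹ * t)⁻¹ = n⁻¹ * (t * y * t⁻¹) * n⁻¹⁻¹
      group
    change B.map (MulAut.conj (n⁻¹ * t)).toMonoidHom = B
    rw [h1, ← Subgroup.map_map, ← hnx]
    change (B.map (MulAut.conj n).toMonoidHom).map (MulAut.conj n⁻¹).toMonoidHom = B
    rw [Subgroup.map_map]
    have h2 : (MulAut.conj n⁻¹).toMonoidHom.comp (MulAut.conj n).toMonoidHom = MonoidHom.id G := by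
      refine MonoidHom.ext (fun y => ?_)
      change n⁻¹ * (n * y * n⁻¹) * n⁻¹⁻¹ = y
      group
    rw [h2, Subgroup.map_id]
  have hnt : mk (n⁻¹ * t) = mk t := by
    rw [map_mul]
    have : mk n⁻¹ = 1 := (QuotientGroup.eq_one_iff _).mpr (inv_mem hn)
    rw [this, one_mul]
  have h5 := h q hq hqπ B hBp (n⁻¹ * t) (piN_of_mk N hN (by
    change PiN π (orderOf (mk (n⁻¹ * t)))
    rw [hnt]; exact ht)) hs
  rw [mem_centralizer_iff]
  intro y hy
  have hy' : y ∈ B.map mk := by rw [hBQ]; exact hy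
  obtain ⟨b, hb, rfl⟩ := hy'
  have h6 := congrArg mk (mem_centralizer_iff.mp h5 b hb)
  rw [map_mul _ b (n⁻¹ * t), map_mul _ (n⁻¹ * t) b, hnt] at h6
  exact h6

/-- `π`-separable groups -/
def PiSep (π : Set ℕ) (G : Type u) [Group G] : Prop :=
  ∃ (n : ℕ) (H : Fin (n + 1) → Subgroup G), H 0 = ⊥ ∧ H (Fin.last n) = ⊤ ∧ Monotone H ∧ (∀ i, (H i).Normal) ∧
      ∀ i : Fin n, PiN π ((H i.castSucc).relIndex (H i.succ)) ∨ PiN πᶜ ((H i.castSucc).relIndex (H i.succ))

theorem PiSep.quotient {G : Type u} [Group G] [Finite G] {π : Set ℕ} (h : PiSep π G) (N : Subgroup G) [N.Normal] :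
    PiSep π (G ⧸ N) := by
  obtain ⟨n, H, h0, h1, hm, hn, hstep⟩ := h
  refine ⟨n, fun i => (H i).map (QuotientGroup.mk' N), ?_, ?_, ?_, ?_, ?_⟩
  · change (H 0).map _ = ⊥
    rw [h0, Subgroup.map_bot]
  · change (H (Fin.last n)).map _ = ⊤
    rw [h1, Subgroup.map_top_of_surjective _ (QuotientGroup.mk'_surjective N)]
  · intro i j hij
    exact Subgroup.map_mono (hm hij)
  · intro i
    exact (hn i).map _ (QuotientGroup.mk'_surjective N)
  · intro i
    have hd : ((H i.castSucc).map (QuotientGroup.mk' N)).relIndex ((H i.succ).map (QuotientGroup.mk' N)) ∣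
        (H i.castSucc).relIndex (H i.succ) := by
      haveI := hn i.castSucc
      rw [relIndex_map_map, QuotientGroup.ker_mk']
      have hle : H i.castSucc ≤ H i.succ := hm (Fin.castSucc_le_succ i)
      have h2 : H i.succ ⊔ N = H i.succ ⊔ (H i.castSucc ⊔ N) := by
        rw [← sup_assoc, sup_eq_left.mpr hle]
      rw [h2, relIndex_sup_right]
      exact relIndex_dvd_of_le_left _ le_sup_left
    rcases hstep i with h2 | h2
    · exact Or.inl (h2.dvd hd)
    · exact Or.inr (h2.dvd hd)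

end CfsgLib.FgPi
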