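import Cfsg.Agent.LibFgPi

/-! `π`-separable groups in which `π`-elements form a subgroup. -/

set_option autoImplicit false
set_option linter.style.haveILetI false
set_option linter.unusedSectionVars false

namespace CfsgLib.FgPi

open Subgroup Pointwise

universe u

variable {G : Type u} [Group G] [Finite G] {π : Set ℕ}

theorem centralizes_core (hstar : Star π G) (W : Subgroup G) [W.Normal] (hW : PiN πᶜ (Nat.card W)) {t : G}
    (ht : PiN π (orderOf t)) : t ∈ centralizer (W : Set G) := by
  have hcop : (Nat.card (zpowers t)).Coprime (Nat.card W) := by rw [Nat.card_zpowers]; exact ht.coprime hW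
  have h1 : (centralizer ({t} : Set G)).subgroupOf W = ⊤ := by
    apply CfsgLib.FgBas.eq_top_of_sylow
    intro q hq _
    obtain ⟨Q, hQ⟩ := CfsgLib.Coprime.exists_invariant_sylow (A := zpowers t) (K := W)
      (by rw [normalizer_eq_top]; exact le_top) hcop (Or.inl inferInstance) q
    refine ⟨Q, ?_⟩
    intro y hy
    rw [mem_subgroupOf]
    by_cases hqπ : q ∈ π
    · have hqW : ¬ q ∣ Nat.card W := fun h => hW q hq.out h hqπ
      have h2 : Nat.card Q = 1 := by
        obtain ⟨k, hk⟩ := IsPGroup.iff_card.mp Q.isPGroup'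
        rcases Nat.eq_zero_or_pos k with rfl | hk0
        · rw [hk, pow_zero]
        · exfalso
          apply hqW
          have h3 : Nat.card Q ∣ Nat.card W := Subgroup.card_subgroup_dvd_card _
          exact ((dvd_pow_self q hk0.ne').trans (hk ▸ dvd_rfl)).trans h3
      have h3 : (Q : Subgroup W) = ⊥ := Subgroup.card_eq_one.mp h2
      rw [h3, mem_bot] at hy
      rw [hy]; exact one_mem _
    · have h2 := hstar q hq.out hqπ ((Q : Subgroup W).map W.subtype) (Q.isPGroup'.map _) t ht (hQ (mem_zpowers t))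
      rw [mem_centralizer_iff]
      rintro z rfl
      exact (mem_centralizer_iff.mp h2 y (mem_map_of_mem _ hy)).symm
  rw [mem_centralizer_iff]
  intro y hy
  have h2 : (⟨y, hy⟩ : W) ∈ (centralizer ({t} : Set G)).subgroupOf W := by rw [h1]; exact mem_top _
  exact (mem_centralizer_iff.mp h2 t rfl).symm

theorem exists_maximal_normal (G : Type u) [Group G] [Finite G] (π : Set ℕ) :
    ∃ W : Subgroup G, W.Normal ∧ PiN π (Nat.card W) ∧ ∀ D : Subgroup G, D.Normal → PiN π (Nat.card D) → D ≤ W := by
  obtain ⟨W, -, hW⟩ := Set.Finite.exists_le_maximal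
    (Set.toFinite {N : Subgroup G | N.Normal ∧ PiN π (Nat.card N)})
    (show (⊥ : Subgroup G) ∈ {N : Subgroup G | N.Normal ∧ PiN π (Nat.card N)} from
      ⟨inferInstance, by rw [card_bot]; intro q hq hd; exact absurd (Nat.dvd_one.mp hd) hq.one_lt.ne'⟩)
  obtain ⟨hWn, hWp⟩ := hW.prop
  refine ⟨W, hWn, hWp, ?_⟩
  intro D hD hDp
  haveI := hWn
  haveI := hD
  have h1 : (D ⊔ W) ∈ {N : Subgroup G | N.Normal ∧ PiN π (Nat.card N)} := by
    refine ⟨inferInstance, ?_⟩
    have h2 := CfsgLib.SolvBasic.card_sup_of_normal D W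
    exact (hDp.mul hWp).dvd (h2 ▸ Dvd.intro _ rfl)
  exact le_sup_left.trans (hW.le_of_ge h1 le_sup_right)

theorem relIndex_dvd_of_le_right {H K L : Subgroup G} [H.Normal] (h : K ≤ L) : H.relIndex K ∣ H.relIndex L := by
  rw [← relIndex_subgroupOf h]
  exact relIndex_dvd_index_of_normal _ _

theorem trivial_of (hsep : PiSep π G) (hstar : Star π G)
    (hno : ∀ N : Subgroup G, N.Normal → PiN π (Nat.card N) → N = ⊥) : ∀ t : G, PiN π (orderOf t) → t = 1 := by
  obtain ⟨W, hWn, hWp, hWmax⟩ := exists_maximal_normal G πᶜ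
  haveI := hWn
  obtain ⟨n, H, h0, h1, hm, hn, hstep⟩ := hsep
  set C := centralizer (W : Set G) with hC
  have claim : ∀ i, H i ⊓ C ≤ W := by
    intro i
    induction i using Fin.induction with
    | zero => rw [h0, bot_inf_eq]; exact bot_le
    | succ i ih =>
      haveI := hn i.castSucc
      haveI := hn i.succ
      set X := H i.succ ⊓ C with hX
      have hd : W.relIndex X ∣ (H i.castSucc).relIndex (H i.succ) := by
        refine (relIndex_dvd_of_le_left X ih).trans ?_
        have h2 : (H i.castSucc ⊓ C).relIndex X = (H i.castSucc).relIndex X := by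
          rw [← inf_relIndex_right (H i.castSucc ⊓ C) X, ← inf_relIndex_right (H i.castSucc) X]
          congr 1
          rw [hX]
          ext x
          simp only [Subgroup.mem_inf]
          tauto
        rw [h2]
        exact relIndex_dvd_of_le_right inf_le_left
      have hcardX : Nat.card (X ⊓ W : Subgroup G) * W.relIndex X = Nat.card X := by
        have h2 := CfsgLib.Coprime.card_mul_relIndex (inf_le_left : X ⊓ W ≤ X)
        rwa [inf_relIndex_left] at h2
      have hXWp : PiN πᶜ (Nat.card (X ⊓ W : Subgroup G)) := hWp.dvd (card_dvd_of_le inf_le_right)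
      rcases hstep i with h2 | h2
      · -- π-case
        have ha := h2.dvd hd
        have hrel : (X ⊓ W).relIndex X = W.relIndex X := inf_relIndex_left X W
        obtain ⟨B, hBX, hBc, hZB, hZB2⟩ := CfsgLib.Coprime.sz_exists (N := X ⊓ W) (L := X) inf_le_left
          (by rw [normalizer_eq_top]; exact le_top) (by rw [hrel]; exact (ha.coprime hXWp).symm)
        rw [hrel] at hBc
        -- `Z` centralizes `B`
        have hZc : X ⊓ W ≤ centralizer (B : Set G) := by
          intro z hz
          rw [mem_centralizer_iff]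
          intro b hb
          have hbC : b ∈ C := (Subgroup.mem_inf.mp (hBX hb)).2
          exact (mem_centralizer_iff.mp hbC z (Subgroup.mem_inf.mp hz).2).symm
        have hBn : X ≤ normalizer (B : Set G) := by
          rw [← hZB2]
          exact sup_le (hZc.trans (centralizer_le_normalizer _)) le_normalizer
        haveI : (B.subgroupOf X).Normal := (normal_subgroupOf_iff_le_normalizer hBX).mpr hBn
        have hidx : (B.subgroupOf X).index = Nat.card (X ⊓ W : Subgroup G) := by
          have h3 := CfsgLib.Coprime.card_mul_relIndex hBX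
          rw [← hcardX, hBc, mul_comm] at h3
          exact Nat.eq_of_mul_eq_mul_right (Nat.pos_of_ne_zero (by
            rw [← hBc]; exact Nat.card_pos.ne')) h3
        have hmem : ∀ x ∈ X, PiN π (orderOf x) → x ∈ B := by
          intro x hx hxp
          have h3 : (⟨x, hx⟩ : X) ∈ B.subgroupOf X := by
            apply CfsgLib.FgBas.mem_of_pow_mem (pow_index_mem _ _)
            rw [Subgroup.orderOf_mk, hidx]
            exact hxp.coprime hXWp
          exact h3
        have hBp : PiN π (Nat.card B) := by rw [hBc]; exact ha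
        have hBnormal : B.Normal := ⟨fun x hx g => by
          have hx' : g * x * g⁻¹ ∈ X := Normal.conj_mem inferInstance x (hBX hx) g
          apply hmem _ hx'
          rw [CfsgLib.FgBas.orderOf_conj]
          exact piN_orderOf hBp hx⟩
        have hB0 := hno B hBnormal hBp
        rw [hB0, sup_bot_eq] at hZB2
        rw [← hZB2]; exact inf_le_right
      · -- π'-case
        have ha := h2.dvd hd
        exact hWmax X inferInstance (hcardX ▸ hXWp.mul ha)
  intro t ht
  have h2 := claim (Fin.last n)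
  rw [h1, top_inf_eq] at h2
  have h3 : t ∈ W := h2 (centralizes_core hstar W hWp ht)
  have h4 := piN_orderOf hWp h3
  have h5 := ht.coprime h4
  rwa [Nat.coprime_self, orderOf_eq_one_iff] at h5

theorem exists_of_sep (hsep : PiSep π G) (hstar : Star π G) : ∃ K : Subgroup G, ∀ x, x ∈ K ↔ PiN π (orderOf x) := by
  obtain ⟨N, hNn, hNp, hNmax⟩ := exists_maximal_normal G π
  haveI := hNn
  refine ⟨N, fun x => ⟨fun hx => piN_orderOf hNp hx, fun hx => ?_⟩⟩
  have h1 := trivial_of (hsep.quotient N) (hstar.quotient N hNp) (by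
    intro M hM hMp
    have h2 := hNmax (M.comap (QuotientGroup.mk' N)) inferInstance (by
      rw [CfsgLib.SolvBasic.card_comap_mk']
      exact hMp.mul hNp)
    rw [eq_bot_iff]
    intro y hy
    obtain ⟨y, rfl⟩ := QuotientGroup.mk'_surjective N y
    exact (QuotientGroup.eq_one_iff _).mpr (h2 hy)) (QuotientGroup.mk' N x) (piN_mk N hx)
  exact (QuotientGroup.eq_one_iff _).mp h1

/-- the converse -/
theorem sep_of_exists (K : Subgroup G) (hK : ∀ x, x ∈ K ↔ PiN π (orderOf x)) : PiSep π G := by
  obtain ⟨hn, h1, h2⟩ := of_piElements K hK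
  refine ⟨2, ![⊥, K, ⊤], rfl, rfl, ?_, ?_, ?_⟩
  · intro i j hij
    fin_cases i <;> fin_cases j <;> simp at hij ⊢
  · intro i
    fin_cases i
    · exact (inferInstance : (⊥ : Subgroup G).Normal)
    · exact hn
    · exact (inferInstance : (⊤ : Subgroup G).Normal)
  · intro i
    fin_cases i
    · left
      change PiN π ((⊥ : Subgroup G).relIndex K)
      rw [relIndex_bot_left]; exact h1
    · right
      change PiN πᶜ (K.relIndex ⊤)
      rw [relIndex_top_right]; exact h2

theorem hom_of_exists (K : Subgroup G) (hK : ∀ x, x ∈ K ↔ PiN π (orderOf x)) (H : Subgroup G)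
    (hH : ∀ p : ℕ, p.Prime → p ∣ Nat.card ↥H → p ∉ π) :
    ∀ p : ℕ, p.Prime → p ∣ (Subgroup.centralizer (H : Set G)).relIndex (Subgroup.normalizer (H : Set G)) → p ∉ π := by
  obtain ⟨hn, -, -⟩ := of_piElements K hK
  intro p hp hd hpπ
  haveI : Fact p.Prime := ⟨hp⟩
  set N := normalizer (H : Set G) with hN
  set C := centralizer (H : Set G) with hC
  have hd' : p ∣ Nat.card (N ⧸ C.subgroupOf N) := hd
  haveI : (C.subgroupOf N).Normal := Subgroup.normal_subgroupOf_centralizer_normalizer _
  obtain ⟨x, hx⟩ := exists_prime_orderOf_dvd_card' p hd'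
  obtain ⟨x, rfl⟩ := QuotientGroup.mk'_surjective (C.subgroupOf N) x
  obtain ⟨a, b, ha, hb, hab, hba, ⟨k, hk⟩, hbp⟩ := CfsgLib.FgElt.exists_p_decomp hp x
  have hk' : orderOf (a : G) = p ^ k := by rw [Subgroup.orderOf_coe, hk]
  have haK : (a : G) ∈ K := (hK a).mpr (hk' ▸ PiN.pow hp hpπ k)
  have haC : a ∈ C.subgroupOf N := by
    rw [mem_subgroupOf, hC, mem_centralizer_iff]
    intro h hh
    haveI := hn
    have h1 : h * a * h⁻¹ * (a : G)⁻¹ ∈ K := mul_mem (Normal.conj_mem inferInstance _ haK h) (inv_mem haK)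
    have h2 : h * a * h⁻¹ * (a : G)⁻¹ ∈ H := by
      have h3 : (a : G) * h⁻¹ * (a : G)⁻¹ ∈ H := (mem_normalizer_iff.mp a.2 h⁻¹).mp (inv_mem hh)
      have h4 : h * a * h⁻¹ * (a : G)⁻¹ = h * (a * h⁻¹ * (a : G)⁻¹) := by group
      rw [h4]; exact mul_mem hh h3
    have h3 : PiN π (orderOf (h * a * h⁻¹ * (a : G)⁻¹)) := (hK _).mp h1
    have h4 : PiN πᶜ (orderOf (h * a * h⁻¹ * (a : G)⁻¹)) := piN_orderOf (π := πᶜ) hH h2
    have h5 := h3.coprime h4
    rw [Nat.coprime_self, orderOf_eq_one_iff, mul_inv_eq_one, mul_inv_eq_iff_eq_mul] at h5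
    exact h5
  have h1 : QuotientGroup.mk' (C.subgroupOf N) x = QuotientGroup.mk' (C.subgroupOf N) b := by
    rw [← hab, map_mul]
    have : QuotientGroup.mk' (C.subgroupOf N) a = 1 := (QuotientGroup.eq_one_iff _).mpr haC
    rw [this, one_mul]
  have h2 : orderOf (QuotientGroup.mk' (C.subgroupOf N) b) ∣ orderOf b := orderOf_map_dvd _ b
  rw [← h1, hx] at h2
  have h3 := Nat.dvd_gcd h2 (dvd_refl p)
  rw [hbp] at h3
  exact hp.one_lt.ne' (Nat.dvd_one.mp h3)

end CfsgLib.FgPi
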