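import Cfsg.Prelude
open Matrix
open scoped commutatorElement

namespace CfsgLib.FgQd

variable {p : ℕ} [Fact p.Prime]

/-- the affine group as an explicit subgroup -/
def aff (p : ℕ) : Subgroup (Matrix.SpecialLinearGroup (Fin 3) (ZMod p)) where
  carrier := {M | (M : Matrix (Fin 3) (Fin 3) (ZMod p)) 2 0 = 0 ∧
    (M : Matrix (Fin 3) (Fin 3) (ZMod p)) 2 1 = 0 ∧ (M : Matrix (Fin 3) (Fin 3) (ZMod p)) 2 2 = 1}
  mul_mem' := by
    rintro a b ⟨h1, h2, h3⟩ ⟨h4, h5, h6⟩
    simp only [Set.mem_ofPred_eq, Matrix.SpecialLinearGroup.coe_mul, Matrix.mul_apply,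
      Fin.sum_univ_three, h1, h2, h3, h4, h5, h6]
    simp
  one_mem' := by simp
  inv_mem' := by
    rintro a ⟨h1, h2, h3⟩
    have key : ∀ j, ((a⁻¹ : Matrix.SpecialLinearGroup (Fin 3) (ZMod p)) :
        Matrix (Fin 3) (Fin 3) (ZMod p)) 2 j = (1 : Matrix (Fin 3) (Fin 3) (ZMod p)) 2 j := by
      intro j
      have h4 : ((a * a⁻¹ : Matrix.SpecialLinearGroup (Fin 3) (ZMod p)) :
        Matrix (Fin 3) (Fin 3) (ZMod p)) 2 j = (1 : Matrix (Fin 3) (Fin 3) (ZMod p)) 2 j := by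
        rw [mul_inv_cancel, Matrix.SpecialLinearGroup.coe_one]
      rw [← h4, Matrix.SpecialLinearGroup.coe_mul, Matrix.mul_apply, Fin.sum_univ_three, h1, h2, h3]
      simp
    refine ⟨?_, ?_, ?_⟩ <;> rw [key] <;> simp

theorem qd_eq (p : ℕ) : Cfsg.qd p = aff p := Subgroup.closure_eq (aff p)

abbrev X (p : ℕ) := {v : Fin 3 → ZMod p // v 2 = 1}

instance act : MulAction (aff p) (X p) where
  smul M v := ⟨((M : Matrix.SpecialLinearGroup (Fin 3) (ZMod p)) : Matrix (Fin 3) (Fin 3) (ZMod p)) *ᵥ v.1, by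
    obtain ⟨h1, h2, h3⟩ := M.2
    simp [Matrix.mulVec, dotProduct, Fin.sum_univ_three, h1, h2, h3, v.2]⟩
  one_smul v := by
    apply Subtype.ext
    change (1 : Matrix (Fin 3) (Fin 3) (ZMod p)) *ᵥ v.1 = v.1
    rw [Matrix.one_mulVec]
  mul_smul M N v := by
    apply Subtype.ext
    change ((M : Matrix.SpecialLinearGroup (Fin 3) (ZMod p)) * (N : Matrix.SpecialLinearGroup (Fin 3) (ZMod p)) : Matrix (Fin 3) (Fin 3) (ZMod p)) *ᵥ v.1 = (M : Matrix.SpecialLinearGroup (Fin 3) (ZMod p)).1 *ᵥ ((N : Matrix.SpecialLinearGroup (Fin 3) (ZMod p)).1 *ᵥ v.1)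
    rw [Matrix.mulVec_mulVec]

theorem smul_coe (M : aff p) (v : X p) : ((M • v : X p) : Fin 3 → ZMod p) =
    ((M : Matrix.SpecialLinearGroup (Fin 3) (ZMod p)) : Matrix (Fin 3) (Fin 3) (ZMod p)) *ᵥ v.1 := rfl

theorem faithful (M : aff p) (h : ∀ v : X p, M • v = v) : M = 1 := by
  have h0 := congrArg Subtype.val (h ⟨![0, 0, 1], rfl⟩)
  have h1 := congrArg Subtype.val (h ⟨![1, 0, 1], rfl⟩)
  have h2 := congrArg Subtype.val (h ⟨![0, 1, 1], rfl⟩)
  rw [smul_coe] at h0 h1 h2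
  have e0 := fun i => congrFun h0 i
  have e1 := fun i => congrFun h1 i
  have e2 := fun i => congrFun h2 i
  simp only [Matrix.mulVec, dotProduct, Fin.sum_univ_three] at e0 e1 e2
  apply Subtype.ext
  apply Subtype.ext
  ext i j
  have a0 := e0 i
  have a1 := e1 i
  have a2 := e2 i
  change _ = (1 : Matrix (Fin 3) (Fin 3) (ZMod p)) i j
  fin_cases i <;> fin_cases j <;> simp at a0 a1 a2 ⊢ <;> first | exact a0 | linear_combination a1 - a0 | linear_combination a2 - a0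

/-- transvections -/
def uu (t : ZMod p) : aff p := ⟨⟨!![1, t, 0; 0, 1, 0; 0, 0, 1], by simp [Matrix.det_fin_three]⟩, by
  refine ⟨?_, ?_, ?_⟩ <;> simp⟩
def ll (t : ZMod p) : aff p := ⟨⟨!![1, 0, 0; t, 1, 0; 0, 0, 1], by simp [Matrix.det_fin_three]⟩, by
  refine ⟨?_, ?_, ?_⟩ <;> simp⟩
def tt (x y : ZMod p) : aff p := ⟨⟨!![1, 0, x; 0, 1, y; 0, 0, 1], by simp [Matrix.det_fin_three]⟩, by
  refine ⟨?_, ?_, ?_⟩ <;> simp⟩

theorem uu_mul (s t : ZMod p) : uu s * uu t = uu (s + t) := by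
  apply Subtype.ext; apply Subtype.ext
  change (!![1, s, 0; 0, 1, 0; 0, 0, 1] : Matrix (Fin 3) (Fin 3) (ZMod p)) * !![1, t, 0; 0, 1, 0; 0, 0, 1] = !![1, s + t, 0; 0, 1, 0; 0, 0, 1]
  ext i j
  fin_cases i <;> fin_cases j <;> simp [Matrix.mul_apply, Fin.sum_univ_three, add_comm]
theorem ll_mul (s t : ZMod p) : ll s * ll t = ll (s + t) := by
  apply Subtype.ext; apply Subtype.ext
  change (!![1, 0, 0; s, 1, 0; 0, 0, 1] : Matrix (Fin 3) (Fin 3) (ZMod p)) * !![1, 0, 0; t, 1, 0; 0, 0, 1] = !![1, 0, 0; s + t, 1, 0; 0, 0, 1]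
  ext i j
  fin_cases i <;> fin_cases j <;> simp [Matrix.mul_apply, Fin.sum_univ_three, add_comm]
theorem tt_mul (x y z w : ZMod p) : tt x y * tt z w = tt (x + z) (y + w) := by
  apply Subtype.ext; apply Subtype.ext
  change (!![1, 0, x; 0, 1, y; 0, 0, 1] : Matrix (Fin 3) (Fin 3) (ZMod p)) * !![1, 0, z; 0, 1, w; 0, 0, 1] = !![1, 0, x + z; 0, 1, y + w; 0, 0, 1]
  ext i j
  fin_cases i <;> fin_cases j <;> simp [Matrix.mul_apply, Fin.sum_univ_three, add_comm]

theorem uu_zero : uu (0 : ZMod p) = 1 := by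
  apply Subtype.ext; apply Subtype.ext
  change (!![1, 0, 0; 0, 1, 0; 0, 0, 1] : Matrix (Fin 3) (Fin 3) (ZMod p)) = 1
  ext i j
  fin_cases i <;> fin_cases j <;> simp
theorem ll_zero : ll (0 : ZMod p) = 1 := by
  apply Subtype.ext; apply Subtype.ext
  change (!![1, 0, 0; 0, 1, 0; 0, 0, 1] : Matrix (Fin 3) (Fin 3) (ZMod p)) = 1
  ext i j
  fin_cases i <;> fin_cases j <;> simp
theorem tt_zero : tt (0 : ZMod p) 0 = 1 := by
  apply Subtype.ext; apply Subtype.ext
  change (!![1, 0, 0; 0, 1, 0; 0, 0, 1] : Matrix (Fin 3) (Fin 3) (ZMod p)) = 1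
  ext i j
  fin_cases i <;> fin_cases j <;> simp

theorem uu_pow (t : ZMod p) (n : ℕ) : uu t ^ n = uu ((n : ZMod p) * t) := by
  induction n with
  | zero => simp [uu_zero]
  | succ n ih => rw [pow_succ, ih, uu_mul]; congr 1; push_cast; ring
theorem ll_pow (t : ZMod p) (n : ℕ) : ll t ^ n = ll ((n : ZMod p) * t) := by
  induction n with
  | zero => simp [ll_zero]
  | succ n ih => rw [pow_succ, ih, ll_mul]; congr 1; push_cast; ring
theorem tt_pow (x y : ZMod p) (n : ℕ) : tt x y ^ n = tt ((n : ZMod p) * x) ((n : ZMod p) * y) := by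
  induction n with
  | zero => simp [tt_zero]
  | succ n ih => rw [pow_succ, ih, tt_mul]; congr 1 <;> (push_cast; ring)

theorem chi_one (hp : p ≠ 2) (χ : aff p →* ℤˣ) (g : aff p) (hg : g ^ p = 1) : χ g = 1 := by
  have h1 : (χ g) ^ p = 1 := by rw [← map_pow, hg, map_one]
  obtain ⟨k, hk⟩ := (Fact.out : p.Prime).odd_of_ne_two hp
  have key : ∀ u : ℤˣ, u ^ p = 1 → u = 1 := by
    intro u hu
    rw [hk, pow_succ, pow_mul, Int.units_sq, one_pow, one_mul] at hu
    exact hu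
  exact key _ h1

theorem decomp1 (M : aff p) (hc : (M : Matrix.SpecialLinearGroup (Fin 3) (ZMod p)).1 1 0 ≠ 0) :
    ∃ x y a b c, M = tt x y * (uu a * ll b * uu c) := by
  obtain ⟨M, hM⟩ := M
  have hdet := M.2
  obtain ⟨h1, h2, h3⟩ := hM
  change M.1 1 0 ≠ 0 at hc
  set A := M.1 with hA
  change A 2 0 = 0 at h1
  change A 2 1 = 0 at h2
  change A 2 2 = 1 at h3
  refine ⟨A 0 2, A 1 2, (A 0 0 - 1) / A 1 0, A 1 0, (A 1 1 - 1) / A 1 0, ?_⟩
  apply Subtype.ext; apply Subtype.ext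
  change A = (!![1, 0, A 0 2; 0, 1, A 1 2; 0, 0, 1] : Matrix (Fin 3) (Fin 3) (ZMod p)) *
    (!![1, (A 0 0 - 1) / A 1 0, 0; 0, 1, 0; 0, 0, 1] * !![1, 0, 0; A 1 0, 1, 0; 0, 0, 1] *
      !![1, (A 1 1 - 1) / A 1 0, 0; 0, 1, 0; 0, 0, 1])
  rw [Matrix.det_fin_three, h1, h2, h3] at hdet
  have hd : A 0 0 * A 1 1 - A 0 1 * A 1 0 = 1 := by linear_combination hdet
  ext i j
  fin_cases i <;> fin_cases j <;> simp [Matrix.mul_apply, Fin.sum_univ_three, h1, h2, h3] <;>
    field_simp <;> first | linear_combination hd | linear_combination -hd | ring1 | skip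

theorem chi_triv (hp : p ≠ 2) (χ : aff p →* ℤˣ) (M : aff p) : χ M = 1 := by
  have hu : ∀ t, χ (uu t) = 1 := fun t => chi_one hp χ _ (by rw [uu_pow]; simp [uu_zero])
  have hl : ∀ t, χ (ll t) = 1 := fun t => chi_one hp χ _ (by rw [ll_pow]; simp [ll_zero])
  have ht : ∀ x y, χ (tt x y) = 1 := fun x y => chi_one hp χ _ (by rw [tt_pow]; simp [tt_zero])
  have key : ∀ M : aff p, (M : Matrix.SpecialLinearGroup (Fin 3) (ZMod p)).1 1 0 ≠ 0 → χ M = 1 := by
    intro M hM
    obtain ⟨x, y, a, b, c, rfl⟩ := decomp1 M hM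
    simp only [map_mul, hu, hl, ht, mul_one]
  by_cases hM : (M : Matrix.SpecialLinearGroup (Fin 3) (ZMod p)).1 1 0 = 0
  · have h1 : χ (M * ll 1) = 1 := by
      apply key
      obtain ⟨M, hM'⟩ := M
      have hdet := M.2
      obtain ⟨h1, h2, h3⟩ := hM'
      change M.1 1 0 = 0 at hM
      set A := M.1 with hA
      change A 2 0 = 0 at h1
      change A 2 1 = 0 at h2
      change A 2 2 = 1 at h3
      change (A * (!![1, 0, 0; 1, 1, 0; 0, 0, 1] : Matrix (Fin 3) (Fin 3) (ZMod p))) 1 0 ≠ 0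
      rw [Matrix.det_fin_three, h1, h2, h3, hM] at hdet
      simp [Matrix.mul_apply, Fin.sum_univ_three, hM]
      intro h0
      rw [h0] at hdet
      simp at hdet
    rw [map_mul, hl, mul_one] at h1
    exact h1
  · exact key M hM

theorem card_X : Nat.card (X p) = p ^ 2 := by
  have e : X p ≃ (Fin 2 → ZMod p) :=
    { toFun := fun v => ![v.1 0, v.1 1]
      invFun := fun w => ⟨![w 0, w 1, 1], rfl⟩
      left_inv := by
        intro v
        apply Subtype.ext
        ext i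
        have := v.2
        fin_cases i <;> simp [this]
      right_inv := by
        intro w
        ext i
        fin_cases i <;> simp }
  rw [Nat.card_congr e]
  simp

/-- embedding in the alternating group -/
theorem exists_emb (hp : p ≠ 2) (n : ℕ) (hn : p ^ 2 ≤ n) :
    ∃ H : Subgroup (alternatingGroup (Fin n)), Nonempty (↥H ≃* ↥(Cfsg.qd p)) := by
  classical
  haveI : Fintype (X p) := Fintype.ofFinite _
  have hc : Fintype.card (X p) ≤ Fintype.card (Fin n) := by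
    rw [Fintype.card_fin, ← Nat.card_eq_fintype_card, card_X]; exact hn
  obtain ⟨f⟩ := Function.Embedding.nonempty_of_card_le hc
  let φ : aff p →* Equiv.Perm (X p) := MulAction.toPermHom (aff p) (X p)
  have hφ : Function.Injective φ := by
    rw [injective_iff_map_eq_one]
    intro M hM
    apply faithful
    intro v
    exact congrArg (fun σ : Equiv.Perm (X p) => σ v) hM
  let ψ : aff p →* Equiv.Perm (Fin n) := (Equiv.Perm.viaEmbeddingHom f).comp φ
  have hψ : Function.Injective ψ := (Equiv.Perm.viaEmbeddingHom_injective f).comp hφ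
  have hmem : ∀ M, ψ M ∈ alternatingGroup (Fin n) := by
    intro M
    rw [Equiv.Perm.mem_alternatingGroup]
    exact chi_triv hp (Equiv.Perm.sign.comp ψ) M
  let θ : aff p →* alternatingGroup (Fin n) := ψ.codRestrict _ hmem
  have hθ : Function.Injective θ := by
    intro a b hab
    exact hψ (congrArg Subtype.val hab)
  refine ⟨θ.range, ⟨?_⟩⟩
  rw [qd_eq]
  exact (MonoidHom.ofInjective hθ).symm

/-- a `p`-group of permutations of fewer than `p²` points is commutative -/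
theorem comm_of_lt {α : Type*} [Finite α] (hn : Nat.card α < p ^ 2) {P : Subgroup (Equiv.Perm α)}
    (hP : IsPGroup p P) (x y : P) : x * y = y * x := by
  have hp : p.Prime := Fact.out
  have key : ∀ a : α, ⁅x, y⁆ ∈ MulAction.stabilizer P a := by
    intro a
    set S := MulAction.stabilizer P a with hS
    have h1 : S.index ∣ Nat.card P := Subgroup.index_dvd_card _
    obtain ⟨n, hn'⟩ := IsPGroup.iff_card.1 hP
    rw [hn'] at h1
    obtain ⟨b, -, hb⟩ := (Nat.dvd_prime_pow hp).1 h1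
    have h2 : S.index ≤ Nat.card α := by
      rw [hS, MulAction.index_stabilizer]
      exact Set.ncard_le_card _
    have h3 : b < 2 := (Nat.pow_lt_pow_iff_right hp.one_lt).1 (by rw [← hb]; omega)
    obtain rfl | rfl : b = 0 ∨ b = 1 := by omega
    · rw [pow_zero, Subgroup.index_eq_one] at hb
      rw [hb]; trivial
    · rw [pow_one] at hb
      have hnor : S.Normal := by
        have h4 : Nat.card P ≠ 1 := by
          intro h
          have := Subgroup.index_dvd_card S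
          rw [hb, h] at this
          exact hp.one_lt.ne' (Nat.dvd_one.1 this)
        apply Subgroup.normal_of_index_eq_minFac_card
        rw [hb, hn']
        have h5 : n ≠ 0 := by rintro rfl; exact h4 (by rw [hn', pow_zero])
        rw [Nat.Prime.pow_minFac hp h5]
      have hcyc : IsCyclic (P ⧸ S) := isCyclic_of_prime_card (p := p) (by
        rw [← hb]; rfl)
      have h6 : (QuotientGroup.mk ⁅x, y⁆ : P ⧸ S) = 1 := by
        have h7 := hcyc.isMulCommutative.is_comm.comm (QuotientGroup.mk x : P ⧸ S) (QuotientGroup.mk y)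
        rw [commutatorElement_def]
        change (QuotientGroup.mk x : P ⧸ S) * (QuotientGroup.mk y) * (QuotientGroup.mk x)⁻¹ * (QuotientGroup.mk y)⁻¹ = 1
        rw [h7]
        group
      exact (QuotientGroup.eq_one_iff _).1 h6
  rw [← commutatorElement_eq_one_iff_mul_comm]
  apply Subtype.ext
  ext a
  exact key a

/-- the unitriangular group -/
def un (p : ℕ) : Subgroup (Matrix.SpecialLinearGroup (Fin 3) (ZMod p)) where
  carrier := {M | ((M : Matrix (Fin 3) (Fin 3) (ZMod p)) 0 0 = 1 ∧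
    (M : Matrix (Fin 3) (Fin 3) (ZMod p)) 1 1 = 1 ∧ (M : Matrix (Fin 3) (Fin 3) (ZMod p)) 2 2 = 1) ∧
    ((M : Matrix (Fin 3) (Fin 3) (ZMod p)) 1 0 = 0 ∧
    (M : Matrix (Fin 3) (Fin 3) (ZMod p)) 2 0 = 0 ∧ (M : Matrix (Fin 3) (Fin 3) (ZMod p)) 2 1 = 0)}
  mul_mem' := by
    rintro a b ⟨⟨h1, h2, h3⟩, h4, h5, h6⟩ ⟨⟨k1, k2, k3⟩, k4, k5, k6⟩
    simp only [Set.mem_ofPred_eq, Matrix.SpecialLinearGroup.coe_mul, Matrix.mul_apply,
      Fin.sum_univ_three, h1, h2, h3, h4, h5, h6, k1, k2, k3, k4, k5, k6]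
    simp
  one_mem' := by simp
  inv_mem' := by
    rintro a ⟨⟨h1, h2, h3⟩, h4, h5, h6⟩
    have key2 : ∀ j, ((a⁻¹ : Matrix.SpecialLinearGroup (Fin 3) (ZMod p)) :
        Matrix (Fin 3) (Fin 3) (ZMod p)) 2 j = (1 : Matrix (Fin 3) (Fin 3) (ZMod p)) 2 j := by
      intro j
      have h4 : ((a * a⁻¹ : Matrix.SpecialLinearGroup (Fin 3) (ZMod p)) :
        Matrix (Fin 3) (Fin 3) (ZMod p)) 2 j = (1 : Matrix (Fin 3) (Fin 3) (ZMod p)) 2 j := by
        rw [mul_inv_cancel, Matrix.SpecialLinearGroup.coe_one]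
      rw [← h4, Matrix.SpecialLinearGroup.coe_mul, Matrix.mul_apply, Fin.sum_univ_three, h3, h5, h6]
      simp
    have key1 : ∀ j, j ≠ 2 → ((a⁻¹ : Matrix.SpecialLinearGroup (Fin 3) (ZMod p)) :
        Matrix (Fin 3) (Fin 3) (ZMod p)) 1 j = (1 : Matrix (Fin 3) (Fin 3) (ZMod p)) 1 j := by
      intro j hj
      have h4 : ((a * a⁻¹ : Matrix.SpecialLinearGroup (Fin 3) (ZMod p)) :
        Matrix (Fin 3) (Fin 3) (ZMod p)) 1 j = (1 : Matrix (Fin 3) (Fin 3) (ZMod p)) 1 j := by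
        rw [mul_inv_cancel, Matrix.SpecialLinearGroup.coe_one]
      rw [← h4, Matrix.SpecialLinearGroup.coe_mul, Matrix.mul_apply, Fin.sum_univ_three, h2,
        key2, Matrix.one_apply_ne hj.symm]
      simp_all
    have key0 : ((a⁻¹ : Matrix.SpecialLinearGroup (Fin 3) (ZMod p)) :
        Matrix (Fin 3) (Fin 3) (ZMod p)) 0 0 = 1 := by
      have h4 : ((a * a⁻¹ : Matrix.SpecialLinearGroup (Fin 3) (ZMod p)) :
        Matrix (Fin 3) (Fin 3) (ZMod p)) 0 0 = (1 : Matrix (Fin 3) (Fin 3) (ZMod p)) 0 0 := by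
        rw [mul_inv_cancel, Matrix.SpecialLinearGroup.coe_one]
      rw [Matrix.SpecialLinearGroup.coe_mul, Matrix.mul_apply, Fin.sum_univ_three, h1,
        key2, key1 0 (by decide)] at h4
      simpa using h4
    refine ⟨⟨key0, ?_, ?_⟩, ?_, ?_, ?_⟩
    · rw [key1 _ (by decide)]; simp
    · rw [key2]; simp
    · rw [key1 _ (by decide)]; simp
    · rw [key2]; simp
    · rw [key2]; simp

theorem un_pow (hp : p ≠ 2) (M : un p) : M ^ p = 1 := by
  have hp' : p.Prime := Fact.out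
  have h3 : 3 ≤ p := by
    have := hp'.two_le; omega
  obtain ⟨M, ⟨h1, h2, h3'⟩, h4, h5, h6⟩ := M
  apply Subtype.ext
  apply Subtype.ext
  change (M.1 : Matrix (Fin 3) (Fin 3) (ZMod p)) ^ p = 1
  set A := M.1 with hA
  change A 0 0 = 1 at h1
  change A 1 1 = 1 at h2
  change A 2 2 = 1 at h3'
  change A 1 0 = 0 at h4
  change A 2 0 = 0 at h5
  change A 2 1 = 0 at h6
  have hN : (A - 1) ^ 3 = 0 := by
    rw [pow_succ, pow_two]
    ext i j
    fin_cases i <;> fin_cases j <;>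
      simp [Matrix.mul_apply, Fin.sum_univ_three, h1, h2, h3', h4, h5, h6]
  have hN2 : (A - 1) ^ p = 0 := by
    obtain ⟨k, hk⟩ := Nat.exists_eq_add_of_le h3
    rw [show (A - 1) ^ p = (A - 1) ^ (3 + k) by rw [← hk], pow_add, hN, zero_mul]
  have h7 : A = 1 + (A - 1) := by abel
  rw [h7, add_pow_char_of_commute (p := p) (Commute.one_left _), one_pow, hN2, add_zero]

/-- `Qd(p)` is not involved in small alternating groups -/
theorem not_involved (hp : p ≠ 2) (n : ℕ) (hn : n < p ^ 2) :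
    ¬ Cfsg.Involves ↥(Cfsg.qd p) ↥(alternatingGroup (Fin n)) := by
  rintro ⟨K, R, hR, ⟨e⟩⟩
  haveI := hR
  rw [qd_eq] at e
  -- Sylow subgroups of `K` are commutative
  obtain ⟨S⟩ : Nonempty (Sylow p K) := inferInstance
  have hS : ∀ x y : (S : Subgroup K), x * y = y * x := by
    intro x y
    let f : (S : Subgroup K) →* Equiv.Perm (Fin n) :=
      ((alternatingGroup (Fin n)).subtype.comp K.subtype).comp (S : Subgroup K).subtype
    have hf : Function.Injective f :=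
      (Subtype.val_injective.comp Subtype.val_injective).comp Subtype.val_injective
    have h1 : IsPGroup p f.range := S.isPGroup'.of_equiv (MonoidHom.ofInjective hf)
    have h2 := comm_of_lt (α := Fin n) (by rw [Nat.card_eq_fintype_card, Fintype.card_fin]; exact hn) h1
      ⟨f x, x, rfl⟩ ⟨f y, y, rfl⟩
    apply hf
    have h3 := congrArg Subtype.val h2
    change f x * f y = f y * f x at h3
    rw [map_mul, map_mul, h3]
  -- the image
  let g : K →* aff p := e.toMonoidHom.comp (QuotientGroup.mk' (R.subgroupOf K))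
  have hg : Function.Surjective g := e.surjective.comp (QuotientGroup.mk'_surjective _)
  let T : Sylow p (aff p) := S.mapSurjective hg
  have hT : ∀ x y : (T : Subgroup (aff p)), x * y = y * x := by
    rintro ⟨_, x, hx, rfl⟩ ⟨_, y, hy, rfl⟩
    apply Subtype.ext
    change g x * g y = g y * g x
    rw [← map_mul, ← map_mul]
    congr 1
    exact congrArg Subtype.val (hS ⟨x, hx⟩ ⟨y, hy⟩)
  -- the unitriangular group
  let U : Subgroup (aff p) := (un p).subgroupOf (aff p)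
  have hU : IsPGroup p U := by
    intro u
    refine ⟨1, ?_⟩
    rw [pow_one]
    have h0 := congrArg Subtype.val (un_pow hp ⟨_, u.2⟩)
    apply Subtype.ext
    apply Subtype.ext
    exact h0
  obtain ⟨T', hT'⟩ := hU.exists_le_sylow
  obtain ⟨c, hc⟩ := MulAction.exists_smul_eq (aff p) T T'
  have hcomm : ∀ x y : aff p, x ∈ (T' : Subgroup (aff p)) → y ∈ (T' : Subgroup (aff p)) → x * y = y * x := by
    intro x y hx hy
    rw [← hc] at hx hy
    obtain ⟨x', hx', rfl⟩ := hx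
    obtain ⟨y', hy', rfl⟩ := hy
    have := congrArg Subtype.val (hT ⟨x', hx'⟩ ⟨y', hy'⟩)
    change x' * y' = y' * x' at this
    change MulAut.conj c x' * MulAut.conj c y' = MulAut.conj c y' * MulAut.conj c x'
    rw [← map_mul, ← map_mul, this]
  have hu : uu (1 : ZMod p) ∈ U := by
    rw [Subgroup.mem_subgroupOf]
    refine ⟨⟨?_, ?_, ?_⟩, ?_, ?_, ?_⟩ <;> simp [uu]
  have ht : tt (0 : ZMod p) 1 ∈ U := by
    rw [Subgroup.mem_subgroupOf]
    refine ⟨⟨?_, ?_, ?_⟩, ?_, ?_, ?_⟩ <;> simp [tt]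
  have h1 := hcomm _ _ (hT' hu) (hT' ht)
  have h2 := congrArg (fun M : aff p => (M : Matrix.SpecialLinearGroup (Fin 3) (ZMod p)).1 0 2) h1
  change ((!![1, 1, 0; 0, 1, 0; 0, 0, 1] : Matrix (Fin 3) (Fin 3) (ZMod p)) * (!![1, 0, 0; 0, 1, 1; 0, 0, 1] : Matrix (Fin 3) (Fin 3) (ZMod p)) : Matrix (Fin 3) (Fin 3) (ZMod p)) 0 2
    = ((!![1, 0, 0; 0, 1, 1; 0, 0, 1] : Matrix (Fin 3) (Fin 3) (ZMod p)) * (!![1, 1, 0; 0, 1, 0; 0, 0, 1] : Matrix (Fin 3) (Fin 3) (ZMod p)) : Matrix (Fin 3) (Fin 3) (ZMod p)) 0 2 at h2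
  simp [Matrix.mul_apply, Fin.sum_univ_three] at h2

end CfsgLib.FgQd
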