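import Cfsg.Agent.EqBase
import Cfsg.Agent.LibBrP4
import Cfsg.Agent.LibLocR
import Cfsg.Agent.LibDZ19

/-!
# TI Sylow subgroups and characters of small degree, part 1
-/

set_option autoImplicit false
set_option linter.style.haveILetI false
set_option linter.unusedSectionVars false
set_option linter.unusedVariables false

namespace CfsgLib.FgTI

open Cfsg

/-- the residue characteristic of a valuation ring of `ℂ` can be chosen -/
theorem exists_val (p : ℕ) [hp : Fact p.Prime] : ∃ A : ValuationSubring ℂ, ((p : A)) ∈ IsLocalRing.maximalIdeal A := by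
  obtain ⟨M, hM⟩ := CfsgLib.DZ19.exists_modular p
  haveI : M.IsPrime := hM.2.1.isPrime
  haveI hloc : IsLocalRing (CfsgLib.LocR.subring M) := CfsgLib.LocR.isLocalRing_subring
  obtain ⟨B, hB⟩ := LocalSubring.exists_le_valuationSubring (⟨CfsgLib.LocR.subring M⟩ : LocalSubring ℂ)
  obtain ⟨h1, h2⟩ := LocalSubring.le_def.1 hB
  refine ⟨B, ?_⟩
  rw [IsLocalRing.mem_maximalIdeal, mem_nonunits_iff]
  intro hu
  have hu' : IsUnit ((p : CfsgLib.LocR.subring M)) := by
    apply h2.map_nonunit
    rw [map_natCast]
    exact hu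
  have h4 : ((p : CfsgLib.LocR.subring M)) ∈ IsLocalRing.maximalIdeal (CfsgLib.LocR.subring M) := by
    rw [CfsgLib.LocR.mem_maximalIdeal_iff]
    have h5 : (((p : CfsgLib.LocR.subring M)) : ℂ) = (p : ℂ) := by push_cast; rfl
    rw [h5]
    exact CfsgLib.BlockR.ideal_p hM
  exact (IsLocalRing.mem_maximalIdeal _).1 h4 hu'

/-- translates of a vector with non-zero trace are linearly independent -/
theorem indep {k : Type*} [Field k] {p : ℕ} [hp : Fact p.Prime] [CharP k p] {P : Type*} [Group P] [Fintype P]
    (hP : IsPGroup p P) {V : Type*} [AddCommGroup V] [Module k V] (α : Representation k P V) (W : V)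
    (hW : ∑ u, α u W ≠ 0) : LinearIndependent k (fun u : P => α u W) := by
  classical
  rw [Fintype.linearIndependent_iff]
  intro f hf
  by_contra hne
  push Not at hne
  obtain ⟨u0, hu0⟩ := hne
  let t : MonoidAlgebra k P := ∑ u, MonoidAlgebra.single u (f u)
  have htc : ∀ v, t.coeff v = f v := by
    intro v
    rw [CfsgLib.BrP.sum_coeff, Finset.sum_eq_single v]
    · rw [MonoidAlgebra.coeff_single, Finsupp.single_eq_same]
    · intro b _ hb
      rw [MonoidAlgebra.coeff_single, Finsupp.single_eq_of_ne (Ne.symm hb)]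
    · intro h; exact absurd (Finset.mem_univ _) h
  have ht : t ≠ 0 := by
    intro h
    apply hu0
    rw [← htc, h]
    rfl
  let T : MonoidAlgebra k P → V := fun a => α.asAlgebraHom a W
  have hT : ∀ a : MonoidAlgebra k P, T a = ∑ u, a.coeff u • α u W := by
    intro a
    have h1 : a = ∑ u, MonoidAlgebra.single u (a.coeff u) := by
      apply CfsgLib.BrP.ext'
      intro v
      rw [CfsgLib.BrP.sum_coeff, Finset.sum_eq_single v]
      · rw [MonoidAlgebra.coeff_single, Finsupp.single_eq_same]
      · intro b _ hb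
        rw [MonoidAlgebra.coeff_single, Finsupp.single_eq_of_ne (Ne.symm hb)]
      · intro h; exact absurd (Finset.mem_univ _) h
    change α.asAlgebraHom a W = _
    conv_lhs => rw [h1]
    rw [map_sum, LinearMap.sum_apply]
    refine Finset.sum_congr rfl fun u _ => ?_
    rw [Representation.asAlgebraHom_single]
    rfl
  have hTs : ∀ (u : P) (a : MonoidAlgebra k P), T (MonoidAlgebra.single u (1 : k) * a) = α u (T a) := by
    intro u a
    change α.asAlgebraHom (MonoidAlgebra.single u (1 : k) * a) W = _
    rw [map_mul, Representation.asAlgebraHom_single_one]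
    rfl
  have hTt : T t = 0 := by
    rw [hT, ← hf]
    exact Finset.sum_congr rfl fun u _ => by rw [htc]
  obtain ⟨v, hv0, hvC, hvf⟩ := CfsgLib.BrP.exists_fixed_vector (P := (⊤ : Subgroup P)) (k := k) (p := p)
    (hP.to_subgroup ⊤) ht (fun a => T a = 0)
    (fun u _ => by
      rw [hTs, hTt, map_zero])
    (by change α.asAlgebraHom 0 W = 0; rw [map_zero]; rfl)
    (fun a b ha hb => by
      change α.asAlgebraHom (a + b) W = 0
      rw [map_add, LinearMap.add_apply]
      change T a + T b = 0
      rw [ha, hb, add_zero])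
    (fun a ha => by
      change α.asAlgebraHom (-a) W = 0
      rw [map_neg, LinearMap.neg_apply]
      change - T a = 0
      rw [ha, neg_zero])
  have hconst : ∀ u, v.coeff u = v.coeff 1 := by
    intro u
    have h1 := hvf u (Subgroup.mem_top u)
    have h2 := CfsgLib.BrP.single_mul_coeff (k := k) u v u
    rw [h1, inv_mul_cancel] at h2
    exact h2
  have h3 : v.coeff 1 ≠ 0 := by
    intro h
    apply hv0
    apply CfsgLib.BrP.ext'
    intro g
    rw [hconst, h]
    rfl
  have h4 : T v = v.coeff 1 • ∑ u, α u W := by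
    rw [hT, Finset.smul_sum]
    exact Finset.sum_congr rfl fun u _ => by rw [hconst]
  rw [hvC] at h4
  exact (smul_ne_zero h3 hW) h4.symm

end CfsgLib.FgTI
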