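import Cfsg.Agent.LibFgTIa

/-!
# TI Sylow subgroups and characters of small degree, part 2: the matrix part
-/

set_option autoImplicit false
set_option linter.style.haveILetI false
set_option linter.unusedSectionVars false
set_option linter.unusedVariables false

namespace CfsgLib.FgTI

open Cfsg

section Quot

variable {R : Type*} [CommRing R] {G : Type*} [Group G] {n : ℕ} (φ : G →* Matrix (Fin n) (Fin n) R) {H : Subgroup G}

/-- the translates of an `H`-invariant matrix -/
noncomputable def Fq (X : Matrix (Fin n) (Fin n) R) (c : G ⧸ H) : Matrix (Fin n) (Fin n) R :=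
  φ c.out * X * φ (c.out)⁻¹

theorem mul_inv_self (g : G) : φ g * φ g⁻¹ = 1 := by rw [← map_mul, mul_inv_cancel, map_one]
theorem inv_mul_self (g : G) : φ g⁻¹ * φ g = 1 := by rw [← map_mul, inv_mul_cancel, map_one]

theorem Fq_mk {X : Matrix (Fin n) (Fin n) R} (hX : ∀ h ∈ H, φ h * X * φ h⁻¹ = X) (g : G) :
    Fq φ X (g : G ⧸ H) = φ g * X * φ g⁻¹ := by
  obtain ⟨h, hh⟩ := QuotientGroup.mk_out_eq_mul H g
  rw [Fq, hh, mul_inv_rev, map_mul, map_mul]
  have := hX h h.2
  calc φ g * φ h * X * (φ (h : G)⁻¹ * φ g⁻¹) = φ g * (φ h * X * φ (h : G)⁻¹) * φ g⁻¹ := by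
        simp only [mul_assoc]
    _ = _ := by rw [this]

theorem Fq_smul {X : Matrix (Fin n) (Fin n) R} (hX : ∀ h ∈ H, φ h * X * φ h⁻¹ = X) (g : G) (c : G ⧸ H) :
    φ g * Fq φ X c * φ g⁻¹ = Fq φ X (g • c) := by
  induction c using QuotientGroup.induction_on with
  | H x =>
    have h1 : g • (x : G ⧸ H) = ((g * x : G) : G ⧸ H) := rfl
    rw [h1, Fq_mk φ hX, Fq_mk φ hX, mul_inv_rev, map_mul, map_mul]
    simp only [mul_assoc]

theorem trace_conj (g : G) (X : Matrix (Fin n) (Fin n) R) : (φ g * X * φ g⁻¹).trace = X.trace := by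
  rw [Matrix.trace_mul_comm, ← mul_assoc, inv_mul_self, one_mul]

theorem trace_Fq (X : Matrix (Fin n) (Fin n) R) (c : G ⧸ H) : (Fq φ X c).trace = X.trace := trace_conj φ _ _

end Quot

/-- the action on matrices as a representation -/
noncomputable def rep {k : Type*} [Field k] {P : Type*} [Group P] {n : ℕ} (φ : P →* Matrix (Fin n) (Fin n) k) :
    Representation k P (Matrix (Fin n) (Fin n) k) where
  toFun g := { toFun := fun X => φ g * X * φ g⁻¹
               map_add' := fun X Y => by rw [mul_add, add_mul]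
               map_smul' := fun c X => by rw [Matrix.mul_smul, Matrix.smul_mul]; rfl }
  map_one' := by
    ext1 X
    change φ 1 * X * φ 1⁻¹ = X
    rw [inv_one, map_one, one_mul, mul_one]
  map_mul' g h := by
    ext1 X
    change φ (g * h) * X * φ (g * h)⁻¹ = φ g * (φ h * X * φ h⁻¹) * φ g⁻¹
    rw [mul_inv_rev, map_mul, map_mul]
    simp only [mul_assoc]

theorem key {k : Type*} [Field k] {p : ℕ} [hp : Fact p.Prime] [CharP k p] {G : Type*} [Group G] [Fintype G] {n : ℕ}
    (φ : G →* Matrix (Fin n) (Fin n) k) (H P : Subgroup G) [Fintype (G ⧸ H)] (hP : IsPGroup p P) (hPH : P ≤ H)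
    (hfree : ∀ c : G ⧸ H, c ≠ ((1 : G) : G ⧸ H) → ∀ u ∈ P, u • c = c → u = 1)
    {Y : Matrix (Fin n) (Fin n) k} (hY : Y ≠ 0) (htr : Y.trace = 0) (hfix : ∀ h ∈ H, φ h * Y * φ h⁻¹ = Y)
    (hsum : ∑ c : G ⧸ H, Fq φ Y c = 0) : Nat.card P < n ^ 2 := by
  classical
  letI : Fintype P := Fintype.ofFinite P
  let r : (G ⧸ H) → (G ⧸ H) := fun c => (Quotient.mk (MulAction.orbitRel P (G ⧸ H)) c).out
  have hr1 : ∀ c, ∃ u : P, u • r c = c := by
    intro c
    have h1 : (MulAction.orbitRel P (G ⧸ H)) c (r c) :=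
      Setoid.symm' (MulAction.orbitRel P (G ⧸ H)) (Quotient.mk_out (s := MulAction.orbitRel P (G ⧸ H)) c)
    exact h1
  have hr2 : ∀ (u : P) (c), r (u • c) = r c := by
    intro u c
    have h1 : Quotient.mk (MulAction.orbitRel P (G ⧸ H)) (u • c) = Quotient.mk (MulAction.orbitRel P (G ⧸ H)) c :=
      Quotient.sound ⟨u, rfl⟩
    change (Quotient.mk (MulAction.orbitRel P (G ⧸ H)) (u • c)).out = _
    rw [h1]
  have hr3 : ∀ c, r (r c) = r c := by
    intro c
    obtain ⟨u, hu⟩ := hr1 c
    conv_rhs => rw [← hu]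
    rw [hr2]
  let o : G ⧸ H := ((1 : G) : G ⧸ H)
  have ho : ∀ u : P, u • o = o := by
    intro u
    change (((u : G) * 1 : G) : G ⧸ H) = ((1 : G) : G ⧸ H)
    rw [QuotientGroup.eq]
    simpa using hPH u.2
  have hne : ∀ (u : P) (c), c ≠ o → u • c ≠ o := by
    intro u c hc h
    apply hc
    have : c = u⁻¹ • (u • c) := by rw [inv_smul_smul]
    rw [this, h, ho]
  let S : Finset (G ⧸ H) := Finset.univ.filter (fun c => c ≠ o ∧ r c = c)
  let W := ∑ c ∈ S, Fq φ Y c
  let α := rep (k := k) (φ.comp P.subtype)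
  have hα : ∀ (u : P) (X : Matrix (Fin n) (Fin n) k), α u X = φ (u : G) * X * φ (u : G)⁻¹ := fun u X => rfl
  have h1 : ∑ u : P, α u W = ∑ c ∈ Finset.univ.filter (fun c : G ⧸ H => c ≠ o), Fq φ Y c := by
    have h2 : ∀ u : P, α u W = ∑ c ∈ S, Fq φ Y ((u : G) • c) := by
      intro u
      rw [map_sum]
      refine Finset.sum_congr rfl fun c _ => ?_
      rw [hα, Fq_smul φ hfix]
    rw [Finset.sum_congr rfl (fun u _ => h2 u), ← Finset.sum_product']
    refine Finset.sum_bij (fun x _ => (x.1 : G) • x.2) ?_ ?_ ?_ ?_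
    · rintro ⟨u, c⟩ hx
      rw [Finset.mem_product, Finset.mem_filter] at hx
      rw [Finset.mem_filter]
      exact ⟨Finset.mem_univ _, hne u c hx.2.2.1⟩
    · rintro ⟨u, c⟩ hx ⟨v, d⟩ hy hxy
      rw [Finset.mem_product, Finset.mem_filter] at hx hy
      have hxy' : u • c = v • d := hxy
      have h3 : r c = r d := by rw [← hr2 u c, hxy', hr2]
      have h4 : c = d := by
        have e1 : r c = c := hx.2.2.2
        have e2 : r d = d := hy.2.2.2
        rw [← e1, ← e2, h3]
      subst h4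
      have h5 : (v⁻¹ * u) • c = c := by rw [mul_smul, hxy', inv_smul_smul]
      have h6 : ((v⁻¹ * u : P) : G) = 1 := hfree c hx.2.2.1 _ (v⁻¹ * u).2 h5
      have h7 : v⁻¹ * u = 1 := Subtype.ext h6
      rw [inv_mul_eq_one] at h7
      rw [h7]
    · intro d hd
      rw [Finset.mem_filter] at hd
      obtain ⟨u, hu⟩ := hr1 d
      refine ⟨(u, r d), ?_, hu⟩
      rw [Finset.mem_product, Finset.mem_filter]
      refine ⟨Finset.mem_univ _, Finset.mem_univ _, ?_, hr3 d⟩
      intro h
      apply hd.2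
      have h' : r d = o := h
      rw [← hu, h', ho]
    · rintro ⟨u, c⟩ hx
      rfl
  have h2 : ∑ u : P, α u W ≠ 0 := by
    rw [h1]
    have h3 := Finset.sum_filter_add_sum_filter_not Finset.univ (fun c : G ⧸ H => c ≠ o) (fun c => Fq φ Y c)
    rw [hsum] at h3
    have h4 : Finset.univ.filter (fun c : G ⧸ H => ¬ c ≠ o) = {o} := by
      ext c; simp
    rw [h4, Finset.sum_singleton] at h3
    have h5 : Fq φ Y o = Y := by
      change Fq φ Y ((1 : G) : G ⧸ H) = Y
      rw [Fq_mk φ hfix, inv_one, map_one, one_mul, mul_one]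
    rw [h5] at h3
    intro h6
    rw [h6, zero_add] at h3
    exact hY h3
  have hli := indep hP α W h2
  -- all in the kernel of the trace
  have hn : 0 < n := by
    rcases Nat.eq_zero_or_pos n with rfl | h
    · exact absurd (Subsingleton.elim Y 0) hY
    · exact h
  let K := LinearMap.ker (Matrix.traceLinearMap (Fin n) k k)
  have hmem : ∀ u, α u W ∈ K := by
    intro u
    rw [LinearMap.mem_ker, Matrix.traceLinearMap_apply, hα, trace_conj, Matrix.trace_sum]
    apply Finset.sum_eq_zero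
    intro c _
    rw [trace_Fq, htr]
  have hli2 : LinearIndependent k (fun u : P => (⟨α u W, hmem u⟩ : K)) := by
    apply LinearIndependent.of_comp K.subtype
    exact hli
  have h3 := hli2.fintype_card_le_finrank
  have h4 : Module.finrank k (LinearMap.range (Matrix.traceLinearMap (Fin n) k k)) + Module.finrank k K =
      Module.finrank k (Matrix (Fin n) (Fin n) k) :=
    LinearMap.finrank_range_add_finrank_ker (Matrix.traceLinearMap (Fin n) k k)
  have h5 : 0 < Module.finrank k (LinearMap.range (Matrix.traceLinearMap (Fin n) k k)) := by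
    rw [Module.finrank_pos_iff]
    refine ⟨⟨⟨_, ⟨Matrix.single ⟨0, hn⟩ ⟨0, hn⟩ 1, rfl⟩⟩, 0, ?_⟩⟩
    intro h
    have := congrArg Subtype.val h
    simp at this
  have h6 : Module.finrank k (Matrix (Fin n) (Fin n) k) = n ^ 2 := by
    rw [Module.finrank_matrix]; simp [pow_two]
  rw [Nat.card_eq_fintype_card]
  have h7 : Fintype.card P ≤ Module.finrank k K := h3
  omega

end CfsgLib.FgTI
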