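import Cfsg.Agent.LibFgTIb

/-!
# TI Sylow subgroups and characters of small degree, part 3
-/

set_option autoImplicit false
set_option linter.style.haveILetI false
set_option linter.unusedSectionVars false
set_option linter.unusedVariables false

namespace CfsgLib.FgTI

open Cfsg

/-- change of rings -/
def chg {R S : Type*} [CommRing R] [CommRing S] {G : Type*} [Group G] {n : ℕ} (f : R →+* S)
    (φ : G →* Matrix (Fin n) (Fin n) R) : G →* Matrix (Fin n) (Fin n) S :=
  (f.mapMatrix (m := Fin n)).toMonoidHom.comp φ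

theorem chg_apply {R S : Type*} [CommRing R] [CommRing S] {G : Type*} [Group G] {n : ℕ} (f : R →+* S)
    (φ : G →* Matrix (Fin n) (Fin n) R) (g : G) : chg f φ g = f.mapMatrix (φ g) := rfl

theorem Fq_chg {R S : Type*} [CommRing R] [CommRing S] {G : Type*} [Group G] {n : ℕ} (f : R →+* S)
    (φ : G →* Matrix (Fin n) (Fin n) R) {H : Subgroup G} (X : Matrix (Fin n) (Fin n) R) (c : G ⧸ H) :
    f.mapMatrix (Fq φ X c) = Fq (chg f φ) (f.mapMatrix X) c := by
  rw [Fq, Fq, map_mul, map_mul, chg_apply, chg_apply]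

theorem commute_of {p : ℕ} [hp : Fact p.Prime] {G : Type*} [Group G] [Fintype G] {n : ℕ} (A : ValuationSubring ℂ)
    (hpA : (p : A) ∈ IsLocalRing.maximalIdeal A) (Φ : G →* Matrix (Fin n) (Fin n) A) (H P : Subgroup G)
    (hP : IsPGroup p P) (hPH : P ≤ H)
    (hfree : ∀ c : G ⧸ H, c ≠ ((1 : G) : G ⧸ H) → ∀ u ∈ P, u • c = c → u = 1) (hdeg : n ^ 2 ≤ Nat.card P)
    (X : Matrix (Fin n) (Fin n) ℂ) (hX : ∀ h ∈ H, chg A.subtype Φ h * X * chg A.subtype Φ h⁻¹ = X) (g : G) :
    chg A.subtype Φ g * X * chg A.subtype Φ g⁻¹ = X := by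
  classical
  letI : Fintype (G ⧸ H) := Fintype.ofFinite _
  obtain ⟨ρ, hρ⟩ : ∃ ρ, ρ = chg A.subtype Φ := ⟨_, rfl⟩
  rw [← hρ] at hX ⊢
  obtain ⟨N, hN⟩ : ∃ N : ℕ, N = Fintype.card (G ⧸ H) := ⟨_, rfl⟩
  have hN0 : (N : ℂ) ≠ 0 := by
    rw [hN]
    exact_mod_cast (Fintype.card_pos (α := G ⧸ H)).ne'
  obtain ⟨E, hE⟩ : ∃ E, E = ∑ c : G ⧸ H, Fq ρ X c := ⟨_, rfl⟩
  have hEfix : ∀ g, ρ g * E * ρ g⁻¹ = E := by
    intro g
    rw [hE, Finset.mul_sum, Finset.sum_mul]
    rw [Finset.sum_congr rfl (fun c _ => Fq_smul ρ hX g c)]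
    exact Fintype.sum_equiv (MulAction.toPerm g) _ _ (fun c => rfl)
  obtain ⟨Y, hY⟩ : ∃ Y, Y = (N : ℂ) • X - E := ⟨_, rfl⟩
  by_cases hY0 : Y = 0
  · rw [hY, sub_eq_zero] at hY0
    have h1 : X = (N : ℂ)⁻¹ • E := by rw [← hY0, smul_smul, inv_mul_cancel₀ hN0, one_smul]
    rw [h1, Matrix.mul_smul, Matrix.smul_mul, hEfix]
  · exfalso
    have htrY : Y.trace = 0 := by
      rw [hY, Matrix.trace_sub, Matrix.trace_smul, hE, Matrix.trace_sum]
      rw [Finset.sum_congr rfl (fun c _ => trace_Fq ρ X c), Finset.sum_const, Finset.card_univ, ← hN]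
      simp
    have hYH : ∀ h ∈ H, ρ h * Y * ρ h⁻¹ = Y := by
      intro h hh
      rw [hY, mul_sub, sub_mul, Matrix.mul_smul, Matrix.smul_mul, hX h hh, hEfix]
    have hFY : ∀ c : G ⧸ H, Fq ρ Y c = (N : ℂ) • Fq ρ X c - E := by
      intro c
      rw [hY, Fq, mul_sub, sub_mul, Matrix.mul_smul, Matrix.smul_mul, hEfix]
      rfl
    have hsumY : ∑ c : G ⧸ H, Fq ρ Y c = 0 := by
      rw [Finset.sum_congr rfl (fun c _ => hFY c), Finset.sum_sub_distrib, ← Finset.smul_sum, ← hE, Finset.sum_const,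
        Finset.card_univ, ← hN, ← Nat.cast_smul_eq_nsmul ℂ, sub_self]
    -- scaling
    have hn : Nonempty (Fin n) := by
      by_contra h
      rw [not_nonempty_iff] at h
      exact hY0 (Subsingleton.elim _ _)
    obtain ⟨⟨i0, j0⟩, -, hmax⟩ := Finset.exists_max_image (Finset.univ : Finset (Fin n × Fin n))
      (fun x => A.valuation (Y x.1 x.2)) Finset.univ_nonempty
    have hc0 : Y i0 j0 ≠ 0 := by
      intro h
      apply hY0
      ext i j
      have h1 := hmax (i, j) (Finset.mem_univ _)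
      change A.valuation (Y i j) ≤ A.valuation (Y i0 j0) at h1
      rw [h, map_zero, le_zero_iff, map_eq_zero] at h1
      exact h1
    have hmemA : ∀ i j, (Y i0 j0)⁻¹ * Y i j ∈ A := by
      intro i j
      rw [← ValuationSubring.valuation_le_one_iff, map_mul, map_inv₀]
      have h1 := hmax (i, j) (Finset.mem_univ _)
      change A.valuation (Y i j) ≤ A.valuation (Y i0 j0) at h1
      have h2 : A.valuation (Y i0 j0) ≠ 0 := by rwa [Ne, map_eq_zero]
      rw [mul_comm, ← div_eq_mul_inv]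
      exact div_le_one_of_le₀ h1 zero_le
    let Y1 : Matrix (Fin n) (Fin n) A := Matrix.of fun i j => ⟨_, hmemA i j⟩
    have hY1 : A.subtype.mapMatrix Y1 = (Y i0 j0)⁻¹ • Y := by
      ext i j; rfl
    have hinj : Function.Injective (A.subtype.mapMatrix (m := Fin n)) :=
      Matrix.map_injective (fun x y h => Subtype.ext h)
    have hfix1 : ∀ h ∈ H, Φ h * Y1 * Φ h⁻¹ = Y1 := by
      intro h hh
      apply hinj
      rw [map_mul, map_mul, ← chg_apply, ← chg_apply, hY1, ← hρ, Matrix.mul_smul, Matrix.smul_mul, hYH h hh]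
    have htr1 : Y1.trace = 0 := by
      apply Subtype.val_injective
      have h1 : ((Y1.trace : A) : ℂ) = (A.subtype.mapMatrix Y1).trace := by
        change A.subtype (∑ i, Y1 i i) = ∑ i, _
        rw [map_sum]
        rfl
      rw [h1, hY1, Matrix.trace_smul, htrY, smul_zero]
      rfl
    have hsum1 : ∑ c : G ⧸ H, Fq Φ Y1 c = 0 := by
      apply hinj
      rw [map_sum, map_zero]
      have h1 : ∀ c : G ⧸ H, A.subtype.mapMatrix (Fq Φ Y1 c) = (Y i0 j0)⁻¹ • Fq ρ Y c := by
        intro c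
        rw [Fq_chg, hY1, ← hρ, Fq, Fq, Matrix.mul_smul, Matrix.smul_mul]
      rw [Finset.sum_congr rfl (fun c _ => h1 c), ← Finset.smul_sum, hsumY, smul_zero]
    -- reduction
    let res := IsLocalRing.residue A
    have hchar : CharP (IsLocalRing.ResidueField A) p := by
      rw [CharP.charP_iff_prime_eq_zero hp.out]
      have : res (p : A) = 0 := by
        rw [IsLocalRing.residue_eq_zero_iff]; exact hpA
      rwa [map_natCast] at this
    have hk := key (k := IsLocalRing.ResidueField A) (p := p) (chg res Φ) H P hP hPH hfree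
      (Y := res.mapMatrix Y1) (by
        intro h
        have h1 : (res.mapMatrix Y1) i0 j0 = 0 := by rw [h]; rfl
        have h2 : (res.mapMatrix Y1) i0 j0 = res (Y1 i0 j0) := rfl
        have h3 : Y1 i0 j0 = 1 := Subtype.ext (inv_mul_cancel₀ hc0)
        rw [h2, h3, map_one] at h1
        exact one_ne_zero h1)
      (by
        have h1 : (res.mapMatrix Y1).trace = res Y1.trace := by
          change ∑ i, _ = res (∑ i, Y1 i i)
          rw [map_sum]
          rfl
        rw [h1, htr1, map_zero])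
      (by
        intro h hh
        rw [chg_apply, chg_apply, ← map_mul, ← map_mul, hfix1 h hh])
      (by
        rw [← map_zero (res.mapMatrix (m := Fin n)), ← hsum1, map_sum]
        exact Finset.sum_congr rfl fun c _ => (Fq_chg res Φ Y1 c).symm)
    omega

end CfsgLib.FgTI
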