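import Cfsg.Agent.LibFgTIc
import Cfsg.Agent.LibNagA19
import Cfsg.Agent.LibCharBasic

/-!
# TI Sylow subgroups and characters of small degree, part 4
-/

set_option autoImplicit false
set_option linter.style.haveILetI false
set_option linter.unusedSectionVars false
set_option linter.unusedVariables false

namespace CfsgLib.FgTI

open Cfsg
open scoped Pointwise ComplexConjugate

theorem inner_form {K : Type*} [Group K] [Fintype K] {n : ℕ} (τ : K →* Matrix (Fin n) (Fin n) ℂ) :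
    ∑ k : K, (τ k).trace * (τ k⁻¹).trace = ∑ i, ∑ j, (∑ k : K, τ k * Matrix.single i j 1 * τ k⁻¹ : Matrix (Fin n) (Fin n) ℂ) i j := by
  have h1 : ∀ i j, (∑ k : K, τ k * Matrix.single i j 1 * τ k⁻¹ : Matrix (Fin n) (Fin n) ℂ) i j = ∑ k : K, τ k i i * τ k⁻¹ j j := by
    intro i j
    rw [Matrix.sum_apply]
    refine Finset.sum_congr rfl fun k _ => ?_
    rw [Matrix.mul_apply, Finset.sum_eq_single j]
    · rw [Matrix.mul_single_apply_same, mul_one]
    · intro b _ hb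
      rw [Matrix.mul_single_apply_of_ne _ _ _ _ _ hb, zero_mul]
    · intro h; exact absurd (Finset.mem_univ _) h
  simp_rw [h1]
  rw [Finset.sum_congr rfl fun i _ => Finset.sum_comm, Finset.sum_comm]
  refine Finset.sum_congr rfl fun k _ => ?_
  unfold Matrix.trace
  rw [Finset.sum_mul_sum]
  rfl

/-- the averages over `G` and `H` agree -/
theorem avg_eq {G : Type*} [Group G] [Fintype G] {n : ℕ} (ρ : G →* Matrix (Fin n) (Fin n) ℂ) (H : Subgroup G) [Fintype H]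
    (hcomm : ∀ X : Matrix (Fin n) (Fin n) ℂ, (∀ h ∈ H, ρ h * X * ρ h⁻¹ = X) → ∀ g, ρ g * X * ρ g⁻¹ = X)
    (X : Matrix (Fin n) (Fin n) ℂ) :
    (Nat.card G : ℂ) • ∑ h : H, ρ h * X * ρ (h : G)⁻¹ = (Nat.card H : ℂ) • ∑ g : G, ρ g * X * ρ g⁻¹ := by
  obtain ⟨B, hB⟩ : ∃ B, B = ∑ h : H, ρ h * X * ρ (h : G)⁻¹ := ⟨_, rfl⟩
  have h0 : ∀ g h : G, ρ g * (ρ h * X * ρ h⁻¹) * ρ g⁻¹ = ρ (g * h) * X * ρ (g * h)⁻¹ := by
    intro g h
    rw [mul_inv_rev, map_mul, map_mul]
    simp only [mul_assoc]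
  have hBH : ∀ h ∈ H, ρ h * B * ρ h⁻¹ = B := by
    intro h hh
    rw [hB, Finset.mul_sum, Finset.sum_mul]
    rw [Finset.sum_congr rfl fun (k : H) _ => h0 h k]
    exact Fintype.sum_equiv (Equiv.mulLeft (⟨h, hh⟩ : H)) _ _ (fun k => rfl)
  have hBG := hcomm B hBH
  rw [← hB]
  have h1 : (Nat.card G : ℂ) • B = ∑ g : G, ρ g * B * ρ g⁻¹ := by
    rw [Finset.sum_congr rfl fun g _ => hBG g, Finset.sum_const, Finset.card_univ, Nat.card_eq_fintype_card,
      Nat.cast_smul_eq_nsmul]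
  rw [h1]
  have h2 : ∀ g : G, ρ g * B * ρ g⁻¹ = ∑ h : H, ρ (g * h) * X * ρ (g * h)⁻¹ := by
    intro g
    rw [hB, Finset.mul_sum, Finset.sum_mul]
    exact Finset.sum_congr rfl fun k _ => h0 g k
  rw [Finset.sum_congr rfl fun g _ => h2 g, Finset.sum_comm]
  have h3 : ∀ h : H, ∑ g : G, ρ (g * h) * X * ρ (g * h)⁻¹ = ∑ g : G, ρ g * X * ρ g⁻¹ := by
    intro h
    exact Fintype.sum_equiv (Equiv.mulRight (h : G)) _ _ (fun k => rfl)
  rw [Finset.sum_congr rfl fun h _ => h3 h, Finset.sum_const, Finset.card_univ, Nat.card_eq_fintype_card,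
      Nat.cast_smul_eq_nsmul]

/-- the action of `P` on the non-trivial cosets is free -/
theorem free {G : Type*} [Group G] [Finite G] {p : ℕ} [hp : Fact p.Prime] (P : Sylow p G)
    (hTI : ∀ g : G, g ∉ Subgroup.normalizer ((P : Subgroup G) : Set G) →
      (P : Subgroup G) ⊓ (MulAut.conj g • (P : Subgroup G)) = ⊥) (H : Subgroup G)
    (hH : Subgroup.normalizer ((P : Subgroup G) : Set G) ≤ H) (c : G ⧸ H) (hc : c ≠ ((1 : G) : G ⧸ H)) (u : G)
    (hu : u ∈ (P : Subgroup G)) (huc : u • c = c) : u = 1 := by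
  induction c using QuotientGroup.induction_on with
  | H x =>
    by_contra hu1
    apply hc
    have hPH : (P : Subgroup G) ≤ H := Subgroup.le_normalizer.trans hH
    have h1 : x⁻¹ * u * x ∈ H := by
      have h2 : ((u * x : G) : G ⧸ H) = (x : G ⧸ H) := huc
      rw [eq_comm, QuotientGroup.eq] at h2
      rwa [← mul_assoc] at h2
    -- `x⁻¹ u x` is a `p`-element of `H`
    have h3 : IsPGroup p (Subgroup.zpowers (⟨x⁻¹ * u * x, h1⟩ : H)) := by
      obtain ⟨j, hj⟩ := IsPGroup.iff_orderOf.mp P.isPGroup' ⟨u, hu⟩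
      rw [Subgroup.orderOf_mk] at hj
      apply IsPGroup.of_card (n := j)
      rw [Nat.card_zpowers, Subgroup.orderOf_mk, ← hj]
      refine SemiconjBy.orderOf_eq x ?_
      change x * (x⁻¹ * u * x) = u * x
      group
    obtain ⟨Q, hQ⟩ := h3.exists_le_sylow
    obtain ⟨h, hh⟩ := MulAction.exists_smul_eq H (P.subtype hPH) Q
    have h4 : (⟨x⁻¹ * u * x, h1⟩ : H) ∈ (Q : Subgroup H) := hQ (Subgroup.mem_zpowers _)
    rw [← hh] at h4
    have h5 : (h : G)⁻¹ * (x⁻¹ * u * x) * h ∈ (P : Subgroup G) := by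
      rw [Sylow.coe_subgroup_smul, Subgroup.mem_pointwise_smul_iff_inv_smul_mem, ← map_inv, MulAut.smul_def,
        MulAut.conj_apply, inv_inv] at h4
      exact h4
    have h6 : x * h ∈ Subgroup.normalizer ((P : Subgroup G) : Set G) := by
      by_contra hn
      have h7 := hTI (x * h) hn
      apply hu1
      have h8 : u ∈ (P : Subgroup G) ⊓ (MulAut.conj (x * (h : G)) • (P : Subgroup G)) := by
        refine Subgroup.mem_inf.mpr ⟨hu, ?_⟩
        rw [Subgroup.mem_pointwise_smul_iff_inv_smul_mem, ← map_inv, MulAut.smul_def, MulAut.conj_apply]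
        convert h5 using 1
        group
      rw [h7, Subgroup.mem_bot] at h8
      exact h8
    have h9 := H.mul_mem (hH h6) (H.inv_mem h.2)
    rw [mul_inv_cancel_right] at h9
    rw [eq_comm, QuotientGroup.eq]
    simpa using h9

theorem main {G : Type*} [Group G] [Fintype G] (p : ℕ) [hp : Fact p.Prime] (P : Sylow p G)
    (hTI : ∀ g : G, g ∉ Subgroup.normalizer ((P : Subgroup G) : Set G) →
      (P : Subgroup G) ⊓ (MulAut.conj g • (P : Subgroup G)) = ⊥) (χ : G → ℂ) (hχ : Cfsg.IsCharacter G χ)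
    (hdeg : Cfsg.charDegree χ ^ 2 ≤ Nat.card ↥(P : Subgroup G)) (H : Subgroup G) [Fintype ↥H]
    (hH : Subgroup.normalizer ((P : Subgroup G) : Set G) ≤ H) :
    Cfsg.classInner χ χ = Cfsg.classInner (fun h : ↥H => χ h) (fun h : ↥H => χ h) := by
  classical
  obtain ⟨A, hA⟩ := exists_val p
  obtain ⟨n, Φ, hΦ, hn⟩ := CfsgLib.Nag19.exists_integral hχ A
  have hn' : Cfsg.charDegree χ = n := by
    rw [Cfsg.charDegree, hn]
    simp
  rw [hn'] at hdeg
  obtain ⟨ρ, hρ⟩ : ∃ ρ, ρ = chg A.subtype Φ := ⟨_, rfl⟩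
  have hcomm : ∀ X : Matrix (Fin n) (Fin n) ℂ, (∀ h ∈ H, ρ h * X * ρ h⁻¹ = X) → ∀ g, ρ g * X * ρ g⁻¹ = X := by
    intro X hX g
    rw [hρ] at hX ⊢
    exact commute_of (p := p) A hA Φ H P P.isPGroup' (Subgroup.le_normalizer.trans hH)
      (fun c hc u hu huc => free P hTI H hH c hc u hu huc) hdeg X hX g
  have htr : ∀ g, χ g = (ρ g).trace := by
    intro g
    rw [hΦ, hρ, chg_apply]
    change A.subtype (∑ i, Φ g i i) = ∑ i, _
    rw [map_sum]
    rfl
  have hinv : ∀ g, conj (χ g) = χ g⁻¹ := fun g => (CfsgLib.CharBasic.char_inv_eq_conj hχ g).symm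
  have h1 : ∑ g : G, χ g * conj (χ g) = ∑ i, ∑ j, (∑ g : G, ρ g * Matrix.single i j 1 * ρ g⁻¹ : Matrix (Fin n) (Fin n) ℂ) i j := by
    rw [← inner_form ρ]
    refine Finset.sum_congr rfl fun g _ => ?_
    rw [hinv, htr, htr]
  have h2 : ∑ h : H, χ h * conj (χ h) = ∑ i, ∑ j, (∑ h : H, ρ h * Matrix.single i j 1 * ρ (h : G)⁻¹ : Matrix (Fin n) (Fin n) ℂ) i j := by
    refine Eq.trans ?_ (inner_form (ρ.comp H.subtype))
    refine Finset.sum_congr rfl fun g _ => ?_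
    rw [hinv, htr, htr]
    rfl
  have h3 : ∀ i j, (Nat.card G : ℂ) * (∑ h : H, ρ h * Matrix.single i j 1 * ρ (h : G)⁻¹ : Matrix (Fin n) (Fin n) ℂ) i j =
      (Nat.card H : ℂ) * (∑ g : G, ρ g * Matrix.single i j 1 * ρ g⁻¹ : Matrix (Fin n) (Fin n) ℂ) i j := by
    intro i j
    have := congrFun (congrFun (avg_eq ρ H hcomm (Matrix.single i j 1)) i) j
    exact this
  have h4 : (Nat.card G : ℂ) * ∑ h : H, χ h * conj (χ h) = (Nat.card H : ℂ) * ∑ g : G, χ g * conj (χ g) := by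
    rw [h1, h2, Finset.mul_sum, Finset.mul_sum]
    refine Finset.sum_congr rfl fun i _ => ?_
    rw [Finset.mul_sum, Finset.mul_sum]
    exact Finset.sum_congr rfl fun j _ => h3 i j
  have hG0 : (Nat.card G : ℂ) ≠ 0 := by exact_mod_cast Nat.card_pos.ne'
  have hH0 : (Nat.card H : ℂ) ≠ 0 := by exact_mod_cast Nat.card_pos.ne'
  unfold Cfsg.classInner
  rw [inv_mul_eq_div, inv_mul_eq_div, div_eq_div_iff hG0 hH0, mul_comm _ (Nat.card H : ℂ), mul_comm _ (Nat.card G : ℂ)]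
  exact h4.symm

end CfsgLib.FgTI
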