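import Mathlib
import Cfsg.Agent.EqBase
import Cfsg.Agent.LibTwoDeg19
import Cfsg.Agent.LibGallagher

set_option autoImplicit false
set_option maxHeartbeats 400000
set_option linter.unusedSectionVars false

/-! Fully ramified characters (helper19) -/

namespace CfsgLib.FullRam19

open Cfsg CfsgLib.CharBasic CfsgLib.Clifford CfsgLib.Extend CfsgLib.CharIndA CfsgLib.TwoDeg19 CfsgLib.CharNorm
open scoped ComplexConjugate

universe u v

theorem sum_hom_eq_zero {A : Type u} [Group A] [Finite A] [Fintype (A →* ℂˣ)] {q : A} (h : ∃ μ : A →* ℂˣ, μ q ≠ 1) :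
    ∑ l : A →* ℂˣ, (l q : ℂ) = 0 := by
  obtain ⟨μ, hμ⟩ := h
  have h1 : ∑ l : A →* ℂˣ, (l q : ℂ) = (μ q : ℂ) * ∑ l : A →* ℂˣ, (l q : ℂ) := by
    rw [Finset.mul_sum, ← Equiv.sum_comp (Equiv.mulLeft μ)]
    apply Finset.sum_congr rfl
    intro l _
    change ((μ q * l q : ℂˣ) : ℂ) = _
    rw [Units.val_mul]
  have h2 := mul_left_eq_self₀.1 h1.symm
  rcases h2 with h2 | h2
  · exact absurd (Units.ext h2) hμ
  · exact h2

variable {G : Type u} [Group G] [Fintype G] {N : Subgroup G} [Fintype N] (hN : N.Normal) {χ : G → ℂ} (hχ : IsIrrCharacter G χ)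
  {θ : N → ℂ} (hθ : IsIrrCharacter N θ) {e : ℕ} (he : e ^ 2 = N.index) (hr : ∀ z : N, χ z = (e : ℂ) * θ z)

include hN hχ he hr in
theorem e_ne : (e : ℂ) ≠ 0 := by
  intro h
  have h1 : e = 0 := by exact_mod_cast h
  rw [h1] at he
  exact Subgroup.index_ne_zero_of_finite (H := N) (by rw [← he]; norm_num)

include hN hχ he hr in
theorem theta_inv (g : G) : cj hN g θ = θ := by
  have he0 := e_ne hN hχ he hr
  funext n
  rw [cj_apply]
  apply mul_left_cancel₀ he0
  rw [← hr, ← hr]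
  exact irr_classFun hχ n g

include hN hχ hθ he hr in
theorem ind_theta : indFun N θ = (e : ℂ) • χ := by
  have he0 := e_ne hN hχ he hr
  have h1 : classInner (indFun N θ) (indFun N θ) = (e : ℂ) ^ 2 := by
    rw [ci_ind_self hN hθ]
    have h2 : inertia hN θ = ⊤ := by
      rw [eq_top_iff]
      intro g _
      exact theta_inv hN hχ he hr g
    rw [h2, Subgroup.card_top, ← Subgroup.card_mul_index N, ← he]
    have h3 : (Nat.card N : ℂ) ≠ 0 := by exact_mod_cast Nat.card_pos.ne'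
    push_cast
    rw [inv_mul_cancel_left₀ h3]
  have h2 : classInner (indFun N θ) χ = (e : ℂ) := by
    rw [frobenius N θ (irr_classFun hχ)]
    have h3 : (fun h : N => χ h) = (e : ℂ) • θ := funext hr
    rw [h3, ci_smul_r, irr_inner_self hθ]
    simp
  have h3 : classInner χ (indFun N θ) = (e : ℂ) := by
    rw [← CharBasic.inner_conj_symm, h2]; simp
  have h4 : classInner (indFun N θ - (e : ℂ) • χ) (indFun N θ - (e : ℂ) • χ) = 0 := by
    rw [ci_sub_l, ci_sub_r, ci_sub_r, ci_smul_l, ci_smul_l, ci_smul_r, ci_smul_r, h1, h2, h3, irr_inner_self hχ]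
    simp
    ring
  exact sub_eq_zero.1 (inner_self_eq_zero h4)

include hN hχ hθ he hr in
theorem unique_above {χ' : G → ℂ} (hχ' : IsIrrCharacter G χ') (h : classInner (fun n : N => χ' n) θ ≠ 0) : χ' = χ := by
  by_contra hne
  apply h
  have h1 : classInner (indFun N θ) χ' = 0 := by
    rw [ind_theta hN hχ hθ he hr, ci_smul_l, irr_inner_ne hχ hχ' (Ne.symm hne), mul_zero]
  rw [frobenius N θ (irr_classFun hχ')] at h1
  rw [← CharBasic.inner_conj_symm, h1, map_zero]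

include hN hχ hθ he hr in
theorem vanish {g : G} (hg : g ∉ N) : χ g = 0 := by
  have h1 := congrFun (ind_theta hN hχ hθ he hr) g
  rw [ind_eq_zero_off hN θ hg, Pi.smul_apply, smul_eq_mul] at h1
  exact (mul_eq_zero.1 h1.symm).resolve_left (e_ne hN hχ he hr)

include hN hχ hθ he hr in
/-- characters induced from characters above `θ` vanish off `N` -/
theorem ind_vanish {K : Subgroup G} [Fintype K] (hNK : N ≤ K) {ψ : K → ℂ} (hψ : IsIrrCharacter K ψ)
    (hψN : ∀ n : N, ψ ⟨n, hNK n.2⟩ = θ n) {g : G} (hg : g ∉ N) : indFun K ψ g = 0 := by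
  classical
  have hc : IsCharacter G (indFun K ψ) := isCharacter_ind K (irr_isCharacter hψ)
  obtain ⟨m, hm, hexp, -⟩ := char_expand hc
  rw [hexp, Finset.sum_apply]
  apply Finset.sum_eq_zero
  intro χ' _
  rw [Pi.smul_apply]
  by_cases h0 : m χ' = 0
  · rw [h0]; simp
  have h1 : classInner (indFun K ψ) χ' ≠ 0 := by rw [hm]; exact_mod_cast h0
  rw [frobenius K ψ (irr_classFun χ'.2)] at h1
  have h2 : classInner (fun k : K => (χ' : G → ℂ) k) ψ ≠ 0 := by
    rw [← CharBasic.inner_conj_symm]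
    intro h3
    apply h1
    have := congrArg conj h3
    simpa using this
  obtain ⟨r, hrc, hsplit⟩ := CfsgLib.CharMore.split_off (isCharacter_restrict (irr_isCharacter χ'.2) K) hψ h2
  have h3 : (fun n : N => (χ' : G → ℂ) n) = θ + fun n : N => r ⟨n, hNK n.2⟩ := by
    funext n
    have := congrFun hsplit ⟨n, hNK n.2⟩
    rw [Pi.add_apply, hψN] at this
    exact this
  have h4 : IsCharacter N (fun n : N => r ⟨n, hNK n.2⟩) := resT_char hNK hrc
  obtain ⟨k, hk⟩ := char_mult h4 (irr_isCharacter hθ)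
  have h5 : classInner (fun n : N => (χ' : G → ℂ) n) θ ≠ 0 := by
    rw [h3, ci_add_l, irr_inner_self hθ, hk]
    exact_mod_cast (by omega : 1 + k ≠ 0)
  rw [unique_above hN hχ hθ he hr χ'.2 h5, vanish hN hχ hθ he hr hg, smul_zero]

include hN hχ hθ he hr in
/-- no cyclic self-centralizing subgroups of the quotient -/
theorem no_self_cent [N.Normal] (hNt : N ≠ ⊤) (C : Subgroup (G ⧸ N)) (hC : IsCyclic C) :
    Subgroup.centralizer (C : Set (G ⧸ N)) ≠ C := by
  classical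
  intro hcen
  set K : Subgroup G := C.comap (QuotientGroup.mk' N) with hK
  have hNK : N ≤ K := by
    intro n hn
    rw [hK, Subgroup.mem_comap]
    have : QuotientGroup.mk' N n = 1 := (QuotientGroup.eq_one_iff n).2 hn
    rw [this]; exact C.one_mem
  letI := Fintype.ofFinite K
  letI := Fintype.ofFinite (N.subgroupOf K)
  haveI hN'n : (N.subgroupOf K).Normal := subgroupOf_normal hN K
  -- the quotient K/N is cyclic
  let π : K →* C := ((QuotientGroup.mk' N).comp K.subtype).codRestrict C (fun k => k.2)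
  have hπs : Function.Surjective π := by
    rintro ⟨q, hq⟩
    obtain ⟨g, rfl⟩ := QuotientGroup.mk'_surjective N q
    exact ⟨⟨g, hq⟩, rfl⟩
  have hπk : π.ker = N.subgroupOf K := by
    ext k
    rw [MonoidHom.mem_ker, Subgroup.mem_subgroupOf, ← QuotientGroup.eq_one_iff (N := N)]
    exact Subtype.ext_iff
  let eQ : K ⧸ N.subgroupOf K ≃* C := (QuotientGroup.quotientMulEquivOfEq hπk.symm).trans (QuotientGroup.quotientKerEquivOfSurjective π hπs)
  have hcyc : IsCyclic (K ⧸ N.subgroupOf K) := isCyclic_of_surjective eQ.symm.toMonoidHom eQ.symm.surjective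
  -- extension
  have hθ' : IsIrrCharacter (N.subgroupOf K) (toSub K θ) := (toSub_irr hNK).2 hθ
  have hinv : Inv (N.subgroupOf K) (toSub K θ) := by
    rw [inv_iff_cj]
    intro k
    rw [cj_toSub hN, theta_inv hN hχ he hr]
  obtain ⟨ψ, hψ, hψN⟩ := ext_cyclic hcyc hθ' hinv
  have hψN' : ∀ n : N, ψ ⟨n, hNK n.2⟩ = θ n := fun n => hψN ⟨⟨n, hNK n.2⟩, Subgroup.mem_subgroupOf.2 n.2⟩
  -- a generator
  obtain ⟨⟨cq, hcq⟩, hgen⟩ := hC.exists_generator
  obtain ⟨c, rfl⟩ := QuotientGroup.mk'_surjective N cq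
  have hcK : c ∈ K := hcq
  have hcent : ∀ x : G, (QuotientGroup.mk' N x) * (QuotientGroup.mk' N c) = (QuotientGroup.mk' N c) * (QuotientGroup.mk' N x) → x ∈ K := by
    intro x hx
    rw [hK, Subgroup.mem_comap, ← hcen, Subgroup.mem_centralizer_iff]
    intro y hy
    obtain ⟨i, hi⟩ := hgen ⟨y, hy⟩
    have hi' : (QuotientGroup.mk' N c) ^ i = y := congrArg Subtype.val hi
    rw [← hi']
    have : Commute (QuotientGroup.mk' N c) (QuotientGroup.mk' N x) := hx.symm
    exact this.zpow_left i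
  have hcN : c ∉ N := by
    intro hc
    apply hNt
    have h1 : QuotientGroup.mk' N c = 1 := (QuotientGroup.eq_one_iff c).2 hc
    have h2 : K = ⊤ := by
      rw [eq_top_iff]
      intro x _
      apply hcent
      rw [h1, one_mul, mul_one]
    have h3 : ∀ x : G, x ∈ N := by
      intro x
      have hx : x ∈ K := by rw [h2]; exact Subgroup.mem_top _
      obtain ⟨i, hi⟩ := hgen ⟨_, hx⟩
      have hi' : (QuotientGroup.mk' N c) ^ i = QuotientGroup.mk' N x := congrArg Subtype.val hi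
      rw [h1, one_zpow] at hi'
      exact (QuotientGroup.eq_one_iff x).1 hi'.symm
    rw [eq_top_iff]
    exact fun x _ => h3 x
  -- ψ does not vanish on the coset
  have hψr : IsIrrCharacter (N.subgroupOf K) (fun n : N.subgroupOf K => ψ n) := by
    have : (fun n : N.subgroupOf K => ψ n) = toSub K θ := funext hψN
    rw [this]; exact hθ'
  have hnv : ∃ n : N.subgroupOf K, ψ ((n : K) * ⟨c, hcK⟩) ≠ 0 := by
    by_contra hcon
    push Not at hcon
    have h1 := congrFun (CfsgLib.Gallagher.avg_norm_sq (N.subgroupOf K) (irr_isCharacter hψ) hψr) ⟨c, hcK⟩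
    unfold CfsgLib.Gallagher.avg at h1
    rw [Finset.sum_eq_zero (fun n _ => by rw [hcon n, zero_mul]), mul_zero] at h1
    exact zero_ne_one h1
  obtain ⟨n₀, hn₀⟩ := hnv
  set g₀ : K := (n₀ : K) * ⟨c, hcK⟩ with hg₀
  have hg₀q : (g₀ : K ⧸ N.subgroupOf K) = ((⟨c, hcK⟩ : K) : K ⧸ N.subgroupOf K) := by
    rw [hg₀, QuotientGroup.mk_mul, (QuotientGroup.eq_one_iff (n₀ : K)).2 n₀.2, one_mul]
  have hg₀N : (g₀ : G) ∉ N := by
    intro h
    apply hcN
    have h1 : ((n₀ : K) : G)⁻¹ * (g₀ : G) ∈ N := N.mul_mem (N.inv_mem (Subgroup.mem_subgroupOf.1 n₀.2)) h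
    have h2 : ((n₀ : K) : G)⁻¹ * (g₀ : G) = c := by rw [hg₀]; simp
    rwa [h2] at h1
  haveI : Finite ((K ⧸ N.subgroupOf K) →* ℂˣ) := CfsgLib.Resid19.finite_hom
  letI := Fintype.ofFinite ((K ⧸ N.subgroupOf K) →* ℂˣ)
  have hcommQ : ∀ a b : K ⧸ N.subgroupOf K, a * b = b * a := by
    intro a b
    letI := hcyc.commGroup
    exact mul_comm a b
  -- the functions
  have hzero : ∀ l : (K ⧸ N.subgroupOf K) →* ℂˣ, indFun K (fun k => ((l.comp (QuotientGroup.mk' _)) k : ℂ) * ψ k) (g₀ : G) = 0 := by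
    intro l
    apply ind_vanish hN hχ hθ he hr hNK (CfsgLib.Once19.irr_mul_lin hψ (l.comp (QuotientGroup.mk' _))) _ hg₀N
    intro n
    have h1 : (QuotientGroup.mk' (N.subgroupOf K)) (⟨n, hNK n.2⟩ : K) = 1 :=
      (QuotientGroup.eq_one_iff _).2 (Subgroup.mem_subgroupOf.2 n.2)
    rw [MonoidHom.comp_apply, h1, map_one, Units.val_one, one_mul, hψN']
  have hsum : ∑ l : (K ⧸ N.subgroupOf K) →* ℂˣ, ((l (g₀ : K ⧸ N.subgroupOf K))⁻¹ : ℂˣ) *
      (∑ x : G, extendByZero K (fun k => ((l.comp (QuotientGroup.mk' _)) k : ℂ) * ψ k) (x⁻¹ * (g₀ : G) * x)) = (0 : ℂ) := by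
    apply Finset.sum_eq_zero
    intro l _
    have h1 := hzero l
    rw [ind_apply] at h1
    have h2 : (Nat.card K : ℂ)⁻¹ ≠ 0 := inv_ne_zero (by exact_mod_cast Nat.card_pos.ne')
    rw [(mul_eq_zero.1 h1).resolve_left h2, mul_zero]
  simp only [Finset.mul_sum] at hsum
  rw [Finset.sum_comm] at hsum
  have hterm : ∀ x : G, ∑ l : (K ⧸ N.subgroupOf K) →* ℂˣ, (((l (g₀ : K ⧸ N.subgroupOf K))⁻¹ : ℂˣ) : ℂ) *
      extendByZero K (fun k => ((l.comp (QuotientGroup.mk' _)) k : ℂ) * ψ k) (x⁻¹ * (g₀ : G) * x) =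
      if x ∈ K then (Fintype.card ((K ⧸ N.subgroupOf K) →* ℂˣ) : ℂ) * ψ g₀ else 0 := by
    intro x
    split_ifs with hx
    · have hy : x⁻¹ * (g₀ : G) * x = (((⟨x, hx⟩ : K)⁻¹ * g₀ * ⟨x, hx⟩ : K) : G) := rfl
      rw [hy]
      simp only [ext_coe]
      have h1 : ψ ((⟨x, hx⟩ : K)⁻¹ * g₀ * ⟨x, hx⟩) = ψ g₀ := by
        have := irr_classFun hψ g₀ (⟨x, hx⟩ : K)⁻¹
        rwa [inv_inv] at this
      rw [h1, Finset.sum_congr rfl (g := fun _ => ψ g₀)]
      · rw [Finset.sum_const, nsmul_eq_mul, Finset.card_univ]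
      · intro l _
        have h2 : (QuotientGroup.mk' (N.subgroupOf K)) ((⟨x, hx⟩ : K)⁻¹ * g₀ * ⟨x, hx⟩) = (g₀ : K ⧸ N.subgroupOf K) := by
          rw [map_mul, map_mul, hcommQ, map_inv, ← mul_assoc, mul_inv_cancel, one_mul]; rfl
        rw [MonoidHom.comp_apply, h2, ← mul_assoc, ← Units.val_mul, inv_mul_cancel, Units.val_one, one_mul]
    · by_cases hy : x⁻¹ * (g₀ : G) * x ∈ K
      · obtain ⟨y, hyy⟩ : ∃ y : K, x⁻¹ * (g₀ : G) * x = (y : G) := ⟨⟨_, hy⟩, rfl⟩
        rw [hyy]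
        simp only [ext_coe]
        have h1 : ∀ l : (K ⧸ N.subgroupOf K) →* ℂˣ, (((l (g₀ : K ⧸ N.subgroupOf K))⁻¹ : ℂˣ) : ℂ) *
            (((l.comp (QuotientGroup.mk' (N.subgroupOf K))) y : ℂˣ) * ψ y) =
            (l ((g₀ : K ⧸ N.subgroupOf K)⁻¹ * (y : K ⧸ N.subgroupOf K)) : ℂ) * ψ y := by
          intro l
          have h6 : l ((g₀ : K ⧸ N.subgroupOf K)⁻¹ * (y : K ⧸ N.subgroupOf K)) = (l (g₀ : K ⧸ N.subgroupOf K))⁻¹ * l (y : K ⧸ N.subgroupOf K) := by
            rw [map_mul, map_inv]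
          rw [h6, Units.val_mul, mul_assoc]; rfl
        rw [Finset.sum_congr rfl (fun l _ => h1 l), ← Finset.sum_mul, sum_hom_eq_zero, zero_mul]
        apply exists_hom_ne_one hcommQ
        intro h2
        apply hx
        apply hcent
        have h3 : (g₀ : K ⧸ N.subgroupOf K) = (y : K ⧸ N.subgroupOf K) := inv_mul_eq_one.1 h2
        rw [hg₀q] at h3
        have h4 : ((g₀ : G) : G ⧸ N) = (c : G ⧸ N) := by
          rw [hg₀, Subgroup.coe_mul, QuotientGroup.mk_mul, (QuotientGroup.eq_one_iff _).2 (Subgroup.mem_subgroupOf.1 n₀.2), one_mul]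
        have h5 : (c : G ⧸ N) = ((x⁻¹ * (g₀ : G) * x : G) : G ⧸ N) := by
          rw [hyy]
          rw [QuotientGroup.eq] at h3 ⊢
          exact Subgroup.mem_subgroupOf.1 h3
        rw [QuotientGroup.mk_mul, QuotientGroup.mk_mul, h4, QuotientGroup.mk_inv] at h5
        change (x : G ⧸ N) * (c : G ⧸ N) = (c : G ⧸ N) * (x : G ⧸ N)
        calc (x : G ⧸ N) * (c : G ⧸ N) = (x : G ⧸ N) * ((x : G ⧸ N)⁻¹ * (c : G ⧸ N) * (x : G ⧸ N)) := by rw [← h5]
          _ = (c : G ⧸ N) * (x : G ⧸ N) := by group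
      · simp only [ext_not_mem K _ hy, mul_zero, Finset.sum_const_zero]
  rw [Finset.sum_congr rfl (fun x _ => hterm x), ← Finset.sum_filter, Finset.sum_const, nsmul_eq_mul] at hsum
  have h1 : ((Finset.univ.filter (fun x : G => x ∈ K)).card : ℂ) ≠ 0 := by
    rw [Nat.cast_ne_zero, ← Nat.pos_iff_ne_zero, Finset.card_pos]
    exact ⟨1, Finset.mem_filter.2 ⟨Finset.mem_univ _, K.one_mem⟩⟩
  have h2 : (Fintype.card ((K ⧸ N.subgroupOf K) →* ℂˣ) : ℂ) ≠ 0 := by
    rw [Nat.cast_ne_zero]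
    exact Fintype.card_ne_zero
  rcases mul_eq_zero.1 hsum with h3 | h3
  · exact h1 h3
  · rcases mul_eq_zero.1 h3 with h4 | h4
    · exact h2 h4
    · exact hn₀ h4

end CfsgLib.FullRam19
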