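import Mathlib
import Cfsg.Agent.LibFullRam19

/-!
# Fully ramified characters and complements, I (helper17)
-/

set_option autoImplicit false
set_option linter.unusedSectionVars false
set_option linter.style.haveILetI false
set_option linter.unusedVariables false

namespace CfsgLib.Frm

open Cfsg CfsgLib.CharBasic CfsgLib.Clifford CfsgLib.Extend CfsgLib.CharIndA CfsgLib.CharNorm
  CfsgLib.CharMore
open scoped ComplexConjugate

universe u

section basic
variable {G : Type u} [Group G] [Fintype G] {Z P : Subgroup G} [Fintype Z] [Fintype P]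

/-- inner products of functions vanishing off `Z` -/
theorem inner_van (hZP : Z ≤ P) {f g : P → ℂ} (hf : ∀ x : P, (x : G) ∉ Z → f x = 0) :
    (Nat.card P : ℂ) * classInner f g = (Nat.card Z : ℂ) * classInner (resT hZP f) (resT hZP g) := by
  have h1 : (Nat.card P : ℂ) ≠ 0 := by exact_mod_cast Nat.card_pos.ne'
  have h2 : (Nat.card Z : ℂ) ≠ 0 := by exact_mod_cast Nat.card_pos.ne'
  unfold classInner
  rw [mul_inv_cancel_left₀ h1, mul_inv_cancel_left₀ h2]
  symm
  apply Finset.sum_of_injOn (fun z : Z => (⟨z, hZP z.2⟩ : P))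
  · intro a _ b _ hab
    exact Subtype.ext (congrArg (fun x : P => (x : G)) hab)
  · intro a _
    exact Finset.mem_coe.2 (Finset.mem_univ _)
  · intro x _ hx
    rw [hf x, zero_mul]
    intro hxZ
    exact hx ⟨⟨x, hxZ⟩, Finset.mem_coe.2 (Finset.mem_univ _), rfl⟩
  · intro a _
    rfl

/-- transitivity of lying over -/
theorem trans_ne (hZP : Z ≤ P) {f ξ : P → ℂ} (hf : IsCharacter P f) (hξ : IsIrrCharacter P ξ)
    (h1 : classInner f ξ ≠ 0) {θ : Z → ℂ} (hθ : IsIrrCharacter Z θ)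
    (h2 : classInner (resT hZP ξ) θ ≠ 0) : classInner (resT hZP f) θ ≠ 0 := by
  obtain ⟨r, hr, hfr⟩ := split_off hf hξ h1
  have h3 : resT hZP f = resT hZP ξ + resT hZP r := by
    funext z
    show f _ = ξ _ + r _
    rw [hfr]; rfl
  obtain ⟨a, ha⟩ := char_mult (resT_char hZP (irr_isCharacter hξ)) (irr_isCharacter hθ)
  obtain ⟨b, hb⟩ := char_mult (resT_char hZP hr) (irr_isCharacter hθ)
  rw [h3, ci_add_l, ha, hb]
  rw [ha] at h2
  have : a ≠ 0 := fun h => h2 (by rw [h]; simp)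
  exact_mod_cast (by omega : a + b ≠ 0)

/-- constituents of characters lying over a multiple of `θ` -/
theorem below_of_ram (hZP : Z ≤ P) {f ξ : P → ℂ} (hf : IsCharacter P f) (hξ : IsIrrCharacter P ξ)
    (h1 : classInner f ξ ≠ 0) {θ : Z → ℂ} (hθ : IsIrrCharacter Z θ) {e : ℂ}
    (h2 : resT hZP f = e • θ) : classInner (resT hZP ξ) θ ≠ 0 := by
  have h0 : resT hZP ξ ≠ 0 := by
    intro h
    have := congrFun h 1
    exact irr_one_ne_zero hξ this
  obtain ⟨ψ, hψ, hψ0⟩ := exists_constituent (resT_char hZP (irr_isCharacter hξ)) h0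
  have h3 := trans_ne hZP hf hξ h1 hψ hψ0
  rw [h2, ci_smul_l] at h3
  have h4 : θ = ψ := by
    by_contra hne
    exact h3 (by rw [irr_inner_ne hθ hψ hne, mul_zero])
  rw [h4]; exact hψ0

end basic

section syl
variable {G : Type u} [Group G] [Fintype G] {Z P : Subgroup G} [Fintype Z] [Fintype P]

theorem relIndex_card (hZP : Z ≤ P) : Nat.card Z * Z.relIndex P = Nat.card P := by
  have := Subgroup.card_mul_index (Z.subgroupOf P)
  rw [Nat.card_congr (Subgroup.subgroupOfEquivOfLe hZP).toEquiv] at this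
  exact this

theorem cj_inv_of (hZ : Z.Normal) {χ : G → ℂ} (hχ : IsIrrCharacter G χ) {θ : Z → ℂ} {e : ℕ}
    (he : e ^ 2 = Z.index) (hr : ∀ z : Z, χ z = (e : ℂ) * θ z) (g : G) : cj hZ g θ = θ :=
  FullRam19.theta_inv hZ hχ he hr g

/-- fully ramified in the preimage of a Sylow subgroup -/
theorem ram_syl (hZ : Z.Normal) {χ : G → ℂ} (hχ : IsIrrCharacter G χ) {θ : Z → ℂ}
    (hθ : IsIrrCharacter Z θ) {e : ℕ} (he : e ^ 2 = Z.index) (hr : ∀ z : Z, χ z = (e : ℂ) * θ z)
    (hZP : Z ≤ P) {p k e' : ℕ} (hp : p.Prime) (hee : e = p ^ k * e') (hcop : ¬ p ∣ e')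
    (hrel : Z.relIndex P = (p ^ k) ^ 2) :
    ∃ η : P → ℂ, IsIrrCharacter P η ∧ resT hZP η = ((p ^ k : ℕ) : ℂ) • θ := by
  classical
  obtain ⟨η, hη, hη0⟩ := exists_below P hχ
  have hinv := cj_inv_of hZ hχ he hr
  have hχP : IsCharacter P (fun h : P => χ h) := isCharacter_restrict (irr_isCharacter hχ) P
  have h1 : resT hZP (fun h : P => χ h) = (e : ℂ) • θ := funext hr
  have h2 : classInner (resT hZP η) θ ≠ 0 := below_of_ram hZP hχP hη hη0 hθ h1
  have h3 := resT_of_invariant hZ hZP hη hθ (fun t _ => hinv t) h2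
  obtain ⟨t, ht⟩ := char_mult (resT_char hZP (irr_isCharacter hη)) (irr_isCharacter hθ)
  rw [ht] at h2 h3
  refine ⟨η, hη, ?_⟩
  have ht0 : 0 < t := by
    rcases Nat.eq_zero_or_pos t with h | h
    · exact absurd (by rw [h]; simp) h2
    · exact h
  -- the multiplicity
  obtain ⟨m, hm⟩ := char_mult hχP (irr_isCharacter hη)
  have h4 := inner_van hZP (f := fun h : P => χ h) (g := η)
    (fun x hx => FullRam19.vanish hZ hχ hθ he hr hx)
  rw [hm, h1, h3, ci_smul_l, ci_smul_r, irr_inner_self hθ, ← relIndex_card hZP, hrel,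
    Complex.conj_natCast] at h4
  have hZ0 : (Nat.card Z : ℂ) ≠ 0 := by exact_mod_cast Nat.card_pos.ne'
  have h5 : ((p ^ k) ^ 2 : ℕ) * (m : ℂ) = (e : ℂ) * t := by
    apply mul_left_cancel₀ hZ0
    push_cast at h4 ⊢
    rw [← mul_assoc, h4]; ring
  have h6 : (p ^ k) ^ 2 * m = e * t := by exact_mod_cast h5
  have hpk : 0 < p ^ k := pow_pos hp.pos k
  have h7 : p ^ k * m = e' * t := by
    apply Nat.eq_of_mul_eq_mul_left hpk
    rw [← mul_assoc, ← pow_two, h6, hee]; ring
  have h8 : p ^ k ∣ t := by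
    have : p ^ k ∣ e' * t := ⟨m, h7.symm⟩
    exact (Nat.Coprime.pow_left k ((Nat.Prime.coprime_iff_not_dvd hp).2 hcop)).dvd_of_dvd_mul_left this
  have h9 : p ^ k ≤ t := Nat.le_of_dvd ht0 h8
  -- the bound
  haveI : Fintype (Z.subgroupOf P) := Fintype.ofFinite _
  obtain ⟨d, hd0, hd⟩ := irr_one_nat hθ
  have h10 : classInner (indFun (Z.subgroupOf P) (toSub P θ)) η = (t : ℂ) := by
    rw [frobenius_T hZP θ (irr_classFun hη), h3, ci_smul_r, irr_inner_self hθ]
    simp
  have h11 : η 1 = ((t * d : ℕ) : ℂ) := by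
    have := congrFun h3 1
    have h12 : resT hZP η 1 = η 1 := rfl
    rw [h12] at this
    rw [this, Pi.smul_apply, smul_eq_mul, hd]; push_cast; ring
  have h12 : indFun (Z.subgroupOf P) (toSub P θ) 1 = (((p ^ k) ^ 2 * d : ℕ) : ℂ) := by
    rw [ind_one]
    have h13 : toSub P θ 1 = θ 1 := rfl
    have h14 : (Z.subgroupOf P).index = (p ^ k) ^ 2 := hrel
    rw [h13, hd, h14]; push_cast; ring
  have h13 := mult_degree_le (isCharacter_ind _ ((toSub_char hZP).2 (irr_isCharacter hθ))) hη h10 h11 h12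
  have h14 : t * t ≤ (p ^ k) ^ 2 := by
    have : t * t * d ≤ (p ^ k) ^ 2 * d := by rw [mul_assoc]; exact h13
    exact Nat.le_of_mul_le_mul_right this hd0
  have h15 : t ≤ p ^ k := by
    rw [← pow_two] at h14
    exact (Nat.pow_le_pow_iff_left (by norm_num)).1 h14
  rw [h3, le_antisymm h15 h9]

end syl

section amb
variable {G : Type u} [Group G] [Fintype G] {Z P0 P : Subgroup G} [Fintype Z] [Fintype P0] [Fintype P]

/-- the analysis inside an ambient group normalizing everything -/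
theorem amb (hZ : Z.Normal) (hP0 : P0.Normal) (h01 : Z ≤ P0) (h12 : P0 ≤ P) {θ : Z → ℂ}
    (hθ : IsIrrCharacter Z θ) (hinv : ∀ g : G, cj hZ g θ = θ) {η : P → ℂ} (hη : IsIrrCharacter P η)
    {e : ℕ} (he : e ^ 2 = Z.relIndex P) (hr : resT (h01.trans h12) η = (e : ℂ) • θ) :
    ∃ (ξ : P0 → ℂ) (s c : ℕ), IsIrrCharacter P0 ξ ∧ resT h01 ξ = (s : ℂ) • θ ∧ 0 < s ∧
      (∀ ξ' : P0 → ℂ, IsIrrCharacter P0 ξ' → classInner (resT h01 ξ') θ ≠ 0 →
        ∃ x ∈ P, cj hP0 x ξ = ξ') ∧
      (c * Z.relIndex P0 = e * s) ∧ (e = c * (inertia hP0 ξ).relIndex P * s) ∧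
      (IsCyclic (P ⧸ P0.subgroupOf P) → c = 1) := by
  classical
  haveI : Fintype (Z.subgroupOf P) := Fintype.ofFinite _
  haveI : Fintype (P0.subgroupOf P) := Fintype.ofFinite _
  have h02 := h01.trans h12
  have hZn : (Z.subgroupOf P).Normal := subgroupOf_normal hZ P
  haveI hP0n : (P0.subgroupOf P).Normal := subgroupOf_normal hP0 P
  have hθ' : IsIrrCharacter (Z.subgroupOf P) (toSub P θ) := (toSub_irr h02).2 hθ
  have hr' : ∀ z : Z.subgroupOf P, η z = (e : ℂ) * toSub P θ z := by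
    intro z
    exact congrFun hr ⟨((z : P) : G), Subgroup.mem_subgroupOf.1 z.2⟩
  have he' : e ^ 2 = (Z.subgroupOf P).index := he
  -- a constituent
  obtain ⟨ξ', hξ', hξ0'⟩ := exists_below (P0.subgroupOf P) hη
  set ξ : P0 → ℂ := fun x => ξ' ⟨⟨x, h12 x.2⟩, Subgroup.mem_subgroupOf.2 x.2⟩ with hξdef
  have hξξ' : toSub P ξ = ξ' := by
    funext x; rfl
  have hξ : IsIrrCharacter P0 ξ := by
    rw [← toSub_irr h12, hξξ']; exact hξ'
  have hξ0 : classInner (resT h12 η) ξ ≠ 0 := by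
    rw [← ci_toSub h12, hξξ', toSub_resT]; exact hξ0'
  have hηP0 : IsCharacter P0 (resT h12 η) := resT_char h12 (irr_isCharacter hη)
  have hr2 : resT h01 (resT h12 η) = (e : ℂ) • θ := hr
  have h1 : classInner (resT h01 ξ) θ ≠ 0 := below_of_ram h01 hηP0 hξ hξ0 hθ hr2
  obtain ⟨s, hs⟩ := char_mult (resT_char h01 (irr_isCharacter hξ)) (irr_isCharacter hθ)
  have h2 := resT_of_invariant hZ h01 hξ hθ (fun t _ => hinv t) h1
  rw [hs] at h1 h2
  have hs0 : 0 < s := by
    rcases Nat.eq_zero_or_pos s with h | h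
    · exact absurd (by rw [h]; simp) h1
    · exact h
  obtain ⟨c, hc⟩ := char_mult hηP0 (irr_isCharacter hξ)
  -- uniqueness of η
  have huniq : ∀ η' : P → ℂ, IsIrrCharacter P η' → ∀ ζ : P0 → ℂ, IsIrrCharacter P0 ζ →
      classInner (resT h12 η') ζ ≠ 0 → classInner (resT h01 ζ) θ ≠ 0 → η' = η := by
    intro η' hη' ζ hζ h3 h4
    apply FullRam19.unique_above hZn hη hθ' he' hr' hη'
    have h5 := trans_ne h01 (resT_char h12 (irr_isCharacter hη')) hζ h3 hθ h4
    have h6 : (fun n : Z.subgroupOf P => η' n) = toSub P (resT h02 η') := rfl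
    rw [h6, ci_toSub h02]
    exact h5
  have hθs : classInner (resT h01 ξ) θ ≠ 0 := by rw [hs]; exact h1
  have hZ0 : (Nat.card Z : ℂ) ≠ 0 := by exact_mod_cast Nat.card_pos.ne'
  have hA : c * Z.relIndex P0 = e * s := by
    have h3 := inner_van h01 (f := resT h12 η) (g := ξ) (fun x hx => by
      have hx' : (⟨x, h12 x.2⟩ : P) ∉ Z.subgroupOf P := fun h => hx (Subgroup.mem_subgroupOf.1 h)
      exact FullRam19.vanish hZn hη hθ' he' hr' hx')
    rw [hc, hr2, h2, ci_smul_l, ci_smul_r, irr_inner_self hθ, ← relIndex_card h01,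
      Complex.conj_natCast] at h3
    have h4 : ((c * Z.relIndex P0 : ℕ) : ℂ) = ((e * s : ℕ) : ℂ) := by
      apply mul_left_cancel₀ hZ0
      push_cast at h3 ⊢
      rw [mul_comm (c : ℂ), ← mul_assoc, h3]; ring
    exact_mod_cast h4
  obtain ⟨d, hd0, hd⟩ := irr_one_nat hθ
  have hd0' : (d : ℂ) ≠ 0 := by exact_mod_cast hd0.ne'
  have hη1 : η 1 = (e : ℂ) * d := by
    have := congrFun hr 1
    have h3 : resT (h01.trans h12) η 1 = η 1 := rfl
    rw [h3] at this
    rw [this, Pi.smul_apply, smul_eq_mul, hd]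
  have hξ1 : ξ 1 = (s : ℂ) * d := by
    have := congrFun h2 1
    have h3 : resT h01 ξ 1 = ξ 1 := rfl
    rw [h3] at this
    rw [this, Pi.smul_apply, smul_eq_mul, hd]
  have hIn : inertia hP0n ξ' = (inertia hP0 ξ).subgroupOf P := by
    ext x
    rw [mem_inertia, Subgroup.mem_subgroupOf, mem_inertia, ← hξξ']
    have h3 : cj hP0n x (toSub P ξ) = toSub P (cj hP0 (x : G) ξ) := cj_toSub hP0 x ξ
    rw [h3]
    constructor
    · intro h; exact toSub_inj h12 h
    · intro h; rw [h]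
  have hc' : classInner (fun h : P0.subgroupOf P => η h) ξ' = c := by
    rw [← hc, ← ci_toSub h12, hξξ', toSub_resT]
  have hB : e = c * (inertia hP0 ξ).relIndex P * s := by
    have h3 := clifford_degree hP0n hη hξ' hξ0'
    have h4 : ξ' 1 = ξ 1 := rfl
    rw [hc', hIn, h4, hη1, hξ1] at h3
    have h5 : ((inertia hP0 ξ).subgroupOf P).index = (inertia hP0 ξ).relIndex P := rfl
    rw [h5] at h3
    have h6 : (e : ℂ) = c * ((inertia hP0 ξ).relIndex P : ℂ) * s := by
      apply mul_right_cancel₀ hd0'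
      rw [h3]; ring
    exact_mod_cast h6
  refine ⟨ξ, s, c, hξ, h2, hs0, ?_, hA, hB, ?_⟩
  · intro ζ hζ hζθ
    have hζ' : IsIrrCharacter (P0.subgroupOf P) (toSub P ζ) := (toSub_irr h12).2 hζ
    obtain ⟨η', hη', h3⟩ := exists_above (P0.subgroupOf P) hζ'
    have h4 : classInner (resT h12 η') ζ ≠ 0 := by
      rw [← ci_toSub h12, toSub_resT]; exact h3
    have h5 := huniq η' hη' ζ hζ h4 hζθ
    rw [h5] at h3
    obtain ⟨x, hx⟩ := constituents_conj hP0n hη hξ' hζ' hξ0' h3
    refine ⟨x, x.2, ?_⟩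
    apply toSub_inj h12
    rw [← hx, ← hξξ']
    exact (cj_toSub hP0 x ξ).symm
  · intro hcyc
    set T : Subgroup P := inertia hP0n ξ' with hT
    haveI : Fintype T := Fintype.ofFinite _
    have hPT : P0.subgroupOf P ≤ T := le_inertia hP0n (irr_classFun hξ')
    haveI hn : ((P0.subgroupOf P).subgroupOf T).Normal := subgroupOf_normal hP0n T
    haveI : Fintype ((P0.subgroupOf P).subgroupOf T) := Fintype.ofFinite _
    have hcycT : IsCyclic (T ⧸ (P0.subgroupOf P).subgroupOf T) := by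
      let f : T →* P ⧸ P0.subgroupOf P := (QuotientGroup.mk' _).comp T.subtype
      have hf : f.ker = (P0.subgroupOf P).subgroupOf T := by
        ext x
        rw [MonoidHom.mem_ker, Subgroup.mem_subgroupOf]
        exact QuotientGroup.eq_one_iff _
      haveI : IsCyclic f.range := Subgroup.isCyclic _
      let E : T ⧸ (P0.subgroupOf P).subgroupOf T ≃* f.range :=
        (QuotientGroup.quotientMulEquivOfEq hf.symm).trans (QuotientGroup.quotientKerEquivRange f)
      exact isCyclic_of_surjective E.symm.toMonoidHom E.symm.surjective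
    have hinvT : Inv ((P0.subgroupOf P).subgroupOf T) (toSub T ξ') := by
      rw [inv_iff_cj]
      intro t
      have h3 : cj hn t (toSub T ξ') = toSub T (cj hP0n (t : P) ξ') := cj_toSub hP0n t ξ'
      rw [h3, (mem_inertia hP0n).1 t.2]
    obtain ⟨μ, hμ, hμr⟩ := ext_cyclic hcycT ((toSub_irr hPT).2 hξ') hinvT
    have h3 : resT hPT μ = ξ' := by
      apply toSub_inj hPT
      rw [toSub_resT]
      exact funext hμr
    have h4 : classInner (resT hPT μ) ξ' ≠ 0 := by
      rw [h3, irr_inner_self hξ']; exact one_ne_zero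
    obtain ⟨h5, h6⟩ := clifford_corr hP0n hPT hξ' (fun g => mem_inertia hP0n) hμ h4
    rw [h3, irr_inner_self hξ'] at h6
    have h7 : indFun T μ = η := by
      apply huniq _ h5 ξ hξ _ hθs
      rw [← ci_toSub h12, hξξ', toSub_resT]
      rw [h6]; exact one_ne_zero
    rw [h7, hc'] at h6
    exact_mod_cast h6

end amb

end CfsgLib.Frm
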