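import Mathlib
import Cfsg.Agent.LibFrm1

/-!
# Fully ramified characters and complements, II (helper17)
-/

set_option autoImplicit false
set_option linter.unusedSectionVars false
set_option linter.style.haveILetI false
set_option linter.unusedVariables false

namespace CfsgLib.Frm

open Cfsg CfsgLib.CharBasic CfsgLib.Clifford CfsgLib.Extend CfsgLib.CharIndA CfsgLib.CharNorm
  CfsgLib.CharMore
open scoped ComplexConjugate

universe u

section grp
variable {G : Type u} [Group G] [Finite G]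

theorem rel_of_mul {A B C : Subgroup G} (hA : A ≤ C) (h : ∀ c ∈ C, ∃ a ∈ A, ∃ b ∈ B, c = a * b) :
    B.relIndex A = B.relIndex C := by
  show Nat.card (A ⧸ B.subgroupOf A) = Nat.card (C ⧸ B.subgroupOf C)
  apply Nat.card_eq_of_bijective (Subgroup.quotientSubgroupOfEmbeddingOfLE B hA)
  refine ⟨(Subgroup.quotientSubgroupOfEmbeddingOfLE B hA).injective, fun q => ?_⟩
  obtain ⟨⟨c, hc⟩, rfl⟩ := QuotientGroup.mk_surjective q
  obtain ⟨a, ha, b, hb, hab⟩ := h c hc
  refine ⟨QuotientGroup.mk ⟨a, ha⟩, ?_⟩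
  rw [Subgroup.quotientSubgroupOfEmbeddingOfLE_apply_mk, QuotientGroup.eq, Subgroup.mem_subgroupOf]
  show a⁻¹ * c ∈ B
  rw [hab, inv_mul_cancel_left]
  exact hb

variable {p : ℕ} [hp : Fact p.Prime] {Z K : Subgroup G} [hZ : Z.Normal] [hK : K.Normal] (hZK : Z ≤ K)
  (S : Sylow p G)

/-- preimage of a Sylow subgroup modulo `Z` -/
def PP (Z : Subgroup G) (S : Sylow p G) : Subgroup G := Z ⊔ (S : Subgroup G)

def P0 (Z K : Subgroup G) (S : Sylow p G) : Subgroup G := PP Z S ⊓ K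

theorem PP_index : ¬ p ∣ (PP Z S).index := by
  intro h
  apply S.not_dvd_index
  exact h.trans (Subgroup.index_dvd_of_le le_sup_right)

theorem PP_rel : ∃ j : ℕ, Z.relIndex (PP Z S) = p ^ j := by
  unfold PP
  rw [Subgroup.relIndex_sup_left]
  exact S.isPGroup'.index (Z.subgroupOf (S : Subgroup G))

include hZK in
theorem Z_le_P0 : Z ≤ P0 Z K S := le_inf le_sup_left hZK

theorem P0_le : P0 Z K S ≤ PP Z S := inf_le_left

include hZK in
theorem P0_eq : P0 Z K S = Z ⊔ ((S : Subgroup G) ⊓ K) := by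
  apply le_antisymm
  · rintro x ⟨hx1, hx2⟩
    obtain ⟨z, hz, s, hs, rfl⟩ := Subgroup.mem_sup_of_normal_left.1 hx1
    have h1 : s ∈ K := by
      have := K.mul_mem (K.inv_mem (hZK hz)) hx2
      rwa [inv_mul_cancel_left] at this
    exact Subgroup.mul_mem_sup hz ⟨hs, h1⟩
  · apply sup_le (Z_le_P0 hZK S)
    exact le_inf (inf_le_left.trans le_sup_right) inf_le_right

theorem SK_index : ¬ p ∣ (S : Subgroup G).relIndex K := by
  intro h
  apply S.not_dvd_index
  have h1 : (S : Subgroup G).relIndex K = (S : Subgroup G).relIndex (K ⊔ S) := by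
    apply rel_of_mul le_sup_left
    intro c hc
    obtain ⟨a, ha, b, hb, hab⟩ := Subgroup.mem_sup_of_normal_left.1 hc
    exact ⟨a, ha, b, hb, hab.symm⟩
  rw [h1] at h
  exact h.trans (Subgroup.relIndex_dvd_index_of_le le_sup_right)

theorem P0_rel_K : ¬ p ∣ (P0 Z K S).relIndex K := by
  intro h
  apply SK_index (K := K) S
  apply h.trans
  have h1 : (P0 Z K S).relIndex K = (PP Z S).relIndex K := by
    unfold P0; rw [Subgroup.inf_relIndex_right]
  rw [h1]
  exact Subgroup.relIndex_dvd_of_le_left K le_sup_right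

include hZK in
theorem frattini : Subgroup.normalizer (P0 Z K S : Set G) ⊔ K = ⊤ := by
  have hSKp : IsPGroup p ((S : Subgroup G).subgroupOf K) :=
    S.isPGroup'.comap_of_injective K.subtype K.subtype_injective
  have hidx : ¬ p ∣ ((S : Subgroup G).subgroupOf K).index := SK_index S
  have h1 := Sylow.normalizer_sup_eq_top (hSKp.toSylow hidx)
  have h2 : ((hSKp.toSylow hidx : Sylow p K) : Subgroup K).map K.subtype = (S : Subgroup G) ⊓ K := by
    rw [IsPGroup.toSylow_coe, Subgroup.subgroupOf_map_subtype]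
  rw [h2] at h1
  rw [eq_top_iff, ← h1]
  apply sup_le_sup_right
  intro n hn
  rw [Subgroup.mem_normalizer_iff] at hn ⊢
  rw [P0_eq hZK S]
  have key : ∀ n : G, (∀ h, h ∈ (S : Subgroup G) ⊓ K ↔ n * h * n⁻¹ ∈ (S : Subgroup G) ⊓ K) → ∀ x,
      x ∈ Z ⊔ ((S : Subgroup G) ⊓ K) → n * x * n⁻¹ ∈ Z ⊔ ((S : Subgroup G) ⊓ K) := by
    intro n hn x hx
    obtain ⟨z, hz, s, hs, rfl⟩ := Subgroup.mem_sup_of_normal_left.1 hx
    have : n * (z * s) * n⁻¹ = (n * z * n⁻¹) * (n * s * n⁻¹) := by group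
    rw [this]
    exact Subgroup.mul_mem_sup (hZ.conj_mem z hz n) ((hn s).1 hs)
  intro x
  refine ⟨key n hn x, fun h => ?_⟩
  have hn' : ∀ h, h ∈ (S : Subgroup G) ⊓ K ↔ n⁻¹ * h * n⁻¹⁻¹ ∈ (S : Subgroup G) ⊓ K := by
    intro h
    rw [hn (n⁻¹ * h * n⁻¹⁻¹)]
    have : n * (n⁻¹ * h * n⁻¹⁻¹) * n⁻¹ = h := by group
    rw [this]
  have := key n⁻¹ hn' _ h
  have h3 : n⁻¹ * (n * x * n⁻¹) * n⁻¹⁻¹ = x := by group
  rwa [h3] at this

theorem PP_le_norm : PP Z S ≤ Subgroup.normalizer (P0 Z K S : Set G) := by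
  intro x hx
  rw [Subgroup.mem_normalizer_iff]
  intro y
  unfold P0
  rw [Subgroup.mem_inf, Subgroup.mem_inf]
  constructor
  · rintro ⟨h1, h2⟩
    exact ⟨Subgroup.mul_mem _ (Subgroup.mul_mem _ hx h1) (Subgroup.inv_mem _ hx), hK.conj_mem y h2 x⟩
  · rintro ⟨h1, h2⟩
    constructor
    · have := Subgroup.mul_mem _ (Subgroup.mul_mem _ (Subgroup.inv_mem _ hx) h1) hx
      have h3 : x⁻¹ * (x * y * x⁻¹) * x = y := by group
      rwa [h3] at this
    · have := hK.conj_mem _ h2 x⁻¹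
      have h3 : x⁻¹ * (x * y * x⁻¹) * x⁻¹⁻¹ = y := by group
      rwa [h3] at this

include hZK in
/-- the complement -/
theorem compl (N : Subgroup G) (hN : N = Subgroup.normalizer (P0 Z K S : Set G)) (J : Subgroup N)
    (hPJ : (P0 Z K S).subgroupOf N ≤ J)
    (hmul : ∀ g : N, ∃ x ∈ (PP Z S).subgroupOf N, g * x⁻¹ ∈ J)
    (hI : J.relIndex ((PP Z S).subgroupOf N) = (P0 Z K S).relIndex (PP Z S)) :
    ∃ M : Subgroup (G ⧸ K), (¬ p ∣ Nat.card M) ∧ ∃ i, M.index = p ^ i := by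
  set P' := (PP Z S).subgroupOf N with hP'
  set P0' := (P0 Z K S).subgroupOf N with hP0'
  have hPN : PP Z S ≤ N := hN ▸ PP_le_norm S
  have hPP' : P0' ≤ P' := Subgroup.comap_mono (P0_le S)
  have h1 : J.relIndex P' = J.index := by
    rw [← Subgroup.relIndex_top_right]
    apply rel_of_mul le_top
    intro c _
    obtain ⟨x, hx, hxJ⟩ := hmul c⁻¹
    refine ⟨x⁻¹, P'.inv_mem hx, x * c, ?_, by group⟩
    have := J.inv_mem hxJ
    rwa [mul_inv_rev, inv_inv, inv_inv] at this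
  have h2 : P0'.relIndex J * J.index = P0'.index := Subgroup.relIndex_mul_index hPJ
  have h3 : P0'.relIndex P' * P'.index = P0'.index := Subgroup.relIndex_mul_index hPP'
  have h4 : P0'.relIndex P' = (P0 Z K S).relIndex (PP Z S) := Subgroup.relIndex_subgroupOf hPN
  have h5 : P0'.relIndex J = P'.index := by
    rw [← h1, hI] at h2
    rw [h4] at h3
    have h6 : (P0 Z K S).relIndex (PP Z S) ≠ 0 :=
      Subgroup.index_ne_zero_of_finite (H := (P0 Z K S).subgroupOf (PP Z S))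
    apply Nat.eq_of_mul_eq_mul_left (Nat.pos_of_ne_zero h6)
    rw [h3, mul_comm, h2]
  have h6 : ¬ p ∣ P0'.relIndex J := by
    rw [h5]
    intro h
    apply PP_index (Z := Z) S
    exact h.trans (Subgroup.relIndex_dvd_index_of_le hPN)
  set JH := J.map N.subtype with hJH
  have h7 : P0'.relIndex J = (P0 Z K S).relIndex JH := Subgroup.relIndex_comap _ _ _
  set M := JH ⊔ K with hM
  have hKM : K ≤ M := le_sup_right
  have h8 : K.relIndex M = K.relIndex JH := Subgroup.relIndex_sup_right _ _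
  have h9 : ¬ p ∣ K.relIndex M := by
    rw [h8]
    intro h
    apply h6
    rw [h7]
    exact h.trans (Subgroup.relIndex_dvd_of_le_left JH inf_le_right)
  have h10 : M.relIndex (PP Z S) = M.index := by
    rw [← Subgroup.relIndex_top_right]
    apply rel_of_mul le_top
    intro c _
    have hc : c⁻¹ ∈ N ⊔ K := by rw [hN, frattini hZK S]; exact Subgroup.mem_top _
    obtain ⟨k, hk, n, hn, hkn⟩ := Subgroup.mem_sup_of_normal_right.1 hc
    obtain ⟨x, hx, hxJ⟩ := hmul ⟨k, hk⟩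
    -- c⁻¹ = k n, k = j x, so c = n⁻¹ x⁻¹ j⁻¹ = x⁻¹ (x n⁻¹ x⁻¹) j⁻¹
    refine ⟨(x : G)⁻¹, Subgroup.inv_mem _ (Subgroup.mem_subgroupOf.1 hx), (x : G) * c, ?_, by group⟩
    have h11 : ((⟨k, hk⟩ : N) * x⁻¹ : N) ∈ J := hxJ
    have h12 : k * (x : G)⁻¹ ∈ JH := ⟨_, h11, rfl⟩
    have h13 : (x : G) * c = ((x : G) * n⁻¹ * (x : G)⁻¹) * (k * (x : G)⁻¹)⁻¹ := by
      have : c = n⁻¹ * k⁻¹ := by rw [← mul_inv_rev, hkn, inv_inv]
      rw [this]; group
    rw [h13]
    exact M.mul_mem (hKM (hK.conj_mem _ (K.inv_mem hn) _)) (M.inv_mem ((le_sup_left : JH ≤ M) h12))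
  have h11 : ∃ i, M.index = p ^ i := by
    obtain ⟨j, hj⟩ := PP_rel (Z := Z) S
    have h12 : M.index ∣ p ^ j := by
      rw [← h10, ← hj]
      exact Subgroup.relIndex_dvd_of_le_left _ (hZK.trans hKM)
    obtain ⟨i, -, hi⟩ := (Nat.dvd_prime_pow hp.out).1 h12
    exact ⟨i, hi⟩
  have hker : (QuotientGroup.mk' K).ker ≤ M := by rw [QuotientGroup.ker_mk']; exact hKM
  have h12 : (M.map (QuotientGroup.mk' K)).index = M.index :=
    Subgroup.index_map_eq M (QuotientGroup.mk'_surjective K) hker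
  refine ⟨M.map (QuotientGroup.mk' K), ?_, by rw [h12]; exact h11⟩
  have h13 : Nat.card (M.map (QuotientGroup.mk' K)) * M.index = K.relIndex M * M.index := by
    have h14 := Subgroup.card_mul_index (M.map (QuotientGroup.mk' K))
    rw [h12] at h14
    rw [h14, Subgroup.relIndex_mul_index hKM]
    rfl
  have h14 : Nat.card (M.map (QuotientGroup.mk' K)) = K.relIndex M :=
    Nat.eq_of_mul_eq_mul_right (Nat.pos_of_ne_zero Subgroup.index_ne_zero_of_finite) h13
  rw [h14]; exact h9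

end grp

section main
variable {G : Type u} [Group G] [Fintype G] {p : ℕ} [hp : Fact p.Prime] {Z K : Subgroup G}
  [hZ : Z.Normal] [hK : K.Normal] (hZK : Z ≤ K) (S : Sylow p G) [Fintype Z] [Fintype (P0 Z K S)]

include hp in
theorem rel_pow {e : ℕ} (he : e ^ 2 = Z.index) : ∃ k e' : ℕ, e = p ^ k * e' ∧ ¬ p ∣ e' ∧
    Z.relIndex (PP Z S) = (p ^ k) ^ 2 := by
  have he0 : e ≠ 0 := by
    rintro rfl
    exact Subgroup.index_ne_zero_of_finite (H := Z) (by rw [← he]; norm_num)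
  obtain ⟨k, e', he', hee⟩ := Nat.exists_eq_pow_mul_and_not_dvd he0 p hp.out.ne_one
  refine ⟨k, e', hee, he', ?_⟩
  obtain ⟨j, hj⟩ := PP_rel (Z := Z) S
  have h1 : Z.relIndex (PP Z S) * (PP Z S).index = Z.index := Subgroup.relIndex_mul_index le_sup_left
  have h2 := PP_index (Z := Z) S
  rw [← he, hj, hee, mul_pow, ← pow_mul] at h1
  rw [hj, ← pow_mul]
  have h3 : ¬ p ∣ e' ^ 2 := fun h => he' (hp.out.dvd_of_dvd_pow h)
  have h4 : p ^ j ∣ p ^ (k * 2) := by
    have : p ^ j ∣ p ^ (k * 2) * e' ^ 2 := ⟨_, h1.symm⟩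
    exact (Nat.Coprime.pow_left j ((Nat.Prime.coprime_iff_not_dvd hp.out).2 h3)).dvd_of_dvd_mul_right this
  have h5 : p ^ (k * 2) ∣ p ^ j := by
    have : p ^ (k * 2) ∣ p ^ j * (PP Z S).index := ⟨_, h1⟩
    exact (Nat.Coprime.pow_left _ ((Nat.Prime.coprime_iff_not_dvd hp.out).2 h2)).dvd_of_dvd_mul_right this
  exact Nat.dvd_antisymm h4 h5

theorem key {χ : G → ℂ} (hχ : IsIrrCharacter G χ) {θ : Z → ℂ} (hθ : IsIrrCharacter Z θ) {e : ℕ}
    (he : e ^ 2 = Z.index) (hr : ∀ z : Z, χ z = (e : ℂ) * θ z) :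
    ∃ (ξ : P0 Z K S → ℂ) (s c I E : ℕ), IsIrrCharacter _ ξ ∧ resT (Z_le_P0 hZK S) ξ = (s : ℂ) • θ ∧
      0 < s ∧
      (∀ ξ' : P0 Z K S → ℂ, IsIrrCharacter _ ξ' → classInner (resT (Z_le_P0 hZK S) ξ') θ ≠ 0 →
        ξ' 1 = ξ 1) ∧
      c * Z.relIndex (P0 Z K S) = E * s ∧ E = c * I * s ∧ E ^ 2 = Z.relIndex (PP Z S) ∧
      (IsCyclic ((S : Subgroup G).map (QuotientGroup.mk' K)) → c = 1) ∧
      (I = (P0 Z K S).relIndex (PP Z S) →
        ∃ M : Subgroup (G ⧸ K), (¬ p ∣ Nat.card M) ∧ ∃ i, M.index = p ^ i) := by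
  classical
  obtain ⟨k, e', hee, hcop, hrel⟩ := rel_pow S he
  have hZP : Z ≤ PP Z S := le_sup_left
  haveI : Fintype (PP Z S) := Fintype.ofFinite _
  obtain ⟨η, hη, hηr⟩ := ram_syl hZ hχ hθ he hr hZP hp.out hee hcop hrel
  set N := Subgroup.normalizer (P0 Z K S : Set G) with hN
  have hPN : PP Z S ≤ N := PP_le_norm S
  have h0N : P0 Z K S ≤ N := (P0_le S).trans hPN
  have hZN : Z ≤ N := hZP.trans hPN
  haveI : Fintype N := Fintype.ofFinite _
  haveI : Fintype (Z.subgroupOf N) := Fintype.ofFinite _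
  haveI : Fintype ((P0 Z K S).subgroupOf N) := Fintype.ofFinite _
  haveI : Fintype ((PP Z S).subgroupOf N) := Fintype.ofFinite _
  have hZn : (Z.subgroupOf N).Normal := subgroupOf_normal hZ N
  have h0n : ((P0 Z K S).subgroupOf N).Normal := Subgroup.normal_in_normalizer
  have h01 : Z.subgroupOf N ≤ (P0 Z K S).subgroupOf N := Subgroup.comap_mono (Z_le_P0 hZK S)
  have h12 : (P0 Z K S).subgroupOf N ≤ (PP Z S).subgroupOf N := Subgroup.comap_mono (P0_le S)
  have hθ' : IsIrrCharacter (Z.subgroupOf N) (toSub N θ) := (toSub_irr hZN).2 hθ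
  have hη' : IsIrrCharacter ((PP Z S).subgroupOf N) (toSub N η) := (toSub_irr hPN).2 hη
  have hinv : ∀ g : N, cj hZn g (toSub N θ) = toSub N θ := by
    intro g
    have h3 : cj hZn g (toSub N θ) = toSub N (cj hZ (g : G) θ) := cj_toSub hZ g θ
    rw [h3, cj_inv_of hZ hχ he hr]
  have hrel' : (p ^ k) ^ 2 = (Z.subgroupOf N).relIndex ((PP Z S).subgroupOf N) := by
    rw [Subgroup.relIndex_subgroupOf hPN, hrel]
  have hr' : resT (h01.trans h12) (toSub N η) = ((p ^ k : ℕ) : ℂ) • toSub N θ := by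
    funext z
    exact congrFun hηr ⟨((z : N) : G), Subgroup.mem_subgroupOf.1 z.2⟩
  obtain ⟨ξ', s, c, hξ', h1, h2, h3, h4, h5, h6⟩ := amb hZn h0n h01 h12 hθ' hinv hη' hrel' hr'
  set ξ : P0 Z K S → ℂ := fun x => ξ' ⟨⟨x, h0N x.2⟩, Subgroup.mem_subgroupOf.2 x.2⟩ with hξdef
  have hξξ' : toSub N ξ = ξ' := by funext x; rfl
  refine ⟨ξ, s, c, (inertia h0n ξ').relIndex ((PP Z S).subgroupOf N), p ^ k, ?_, ?_, h2, ?_, ?_, h5,
    hrel.symm, ?_, ?_⟩
  · rw [← toSub_irr h0N, hξξ']; exact hξ'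
  · funext z
    exact congrFun h1 ⟨⟨z, hZN z.2⟩, Subgroup.mem_subgroupOf.2 z.2⟩
  · intro ζ hζ hζθ
    have h7 : classInner (resT h01 (toSub N ζ)) (toSub N θ) ≠ 0 := by
      have h8 : resT h01 (toSub N ζ) = toSub N (resT (Z_le_P0 hZK S) ζ) := rfl
      rw [h8, ci_toSub hZN]
      exact hζθ
    obtain ⟨x, hx, hx2⟩ := h3 _ ((toSub_irr h0N).2 hζ) h7
    have h8 := congrFun hx2 1
    rw [cj_one_apply] at h8
    have h9 : toSub N ζ 1 = ζ 1 := rfl
    have h10 : ξ' 1 = ξ 1 := rfl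
    rw [← h9, ← h8, h10]
  · rw [← h4, Subgroup.relIndex_subgroupOf h0N]
  · intro hcyc
    apply h6
    haveI := hcyc
    let f : (PP Z S).subgroupOf N →* G ⧸ K :=
      ((QuotientGroup.mk' K).comp N.subtype).comp ((PP Z S).subgroupOf N).subtype
    have hf : f.ker = ((P0 Z K S).subgroupOf N).subgroupOf ((PP Z S).subgroupOf N) := by
      ext x
      rw [MonoidHom.mem_ker, Subgroup.mem_subgroupOf, Subgroup.mem_subgroupOf]
      have h7 : f x = 1 ↔ (((x : N) : G)) ∈ K := QuotientGroup.eq_one_iff _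
      rw [h7]
      exact ⟨fun h => ⟨Subgroup.mem_subgroupOf.1 x.2, h⟩, fun h => h.2⟩
    have hrange : f.range ≤ (S : Subgroup G).map (QuotientGroup.mk' K) := by
      rintro _ ⟨x, rfl⟩
      have hx : ((x : N) : G) ∈ Z ⊔ (S : Subgroup G) := Subgroup.mem_subgroupOf.1 x.2
      obtain ⟨z, hz, t, ht, hzt⟩ := Subgroup.mem_sup_of_normal_left.1 hx
      refine ⟨t, ht, ?_⟩
      show QuotientGroup.mk' K t = QuotientGroup.mk' K ((x : N) : G)
      rw [← hzt, map_mul]
      have : QuotientGroup.mk' K z = 1 := (QuotientGroup.eq_one_iff z).2 (hZK hz)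
      rw [this, one_mul]
    haveI : IsCyclic f.range := isCyclic_of_injective (Subgroup.inclusion hrange) (Subgroup.inclusion_injective hrange)
    let E : ((PP Z S).subgroupOf N) ⧸ ((P0 Z K S).subgroupOf N).subgroupOf ((PP Z S).subgroupOf N) ≃* f.range :=
      (QuotientGroup.quotientMulEquivOfEq hf.symm).trans (QuotientGroup.quotientKerEquivRange f)
    exact isCyclic_of_surjective E.symm.toMonoidHom E.symm.surjective
  · intro hI
    apply compl hZK S N rfl (inertia h0n ξ') (le_inertia h0n (irr_classFun hξ'))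
    · intro g
      have h7 : IsIrrCharacter _ (cj h0n g ξ') := cj_irr h0n g hξ'
      have h8 : classInner (resT h01 (cj h0n g ξ')) (toSub N θ) ≠ 0 := by
        have h9 : resT h01 (cj h0n g ξ') = cj hZn g (resT h01 ξ') := rfl
        have h10 : classInner (cj hZn g (resT h01 ξ')) (toSub N θ) =
            classInner (cj hZn g (resT h01 ξ')) (cj hZn g (toSub N θ)) := by rw [hinv g]
        rw [h9, h10, ci_cj, h1, ci_smul_l, irr_inner_self hθ', mul_one]
        exact_mod_cast h2.ne'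
      obtain ⟨x, hx, hx2⟩ := h3 _ h7 h8
      refine ⟨x, hx, ?_⟩
      rw [mem_inertia, ← cj_eq_iff]
      exact hx2.symm
    · exact hI

end main

end CfsgLib.Frm
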