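import Mathlib
import Cfsg.Agent.EqBase
import Cfsg.Agent.LibSolvHall
import Cfsg.Agent.LibSolvProd
import Cfsg.Agent.LibSolvNilp

/-! Wielandt's solvability criterion, converse of Hall's theorem, Sylow systems -/

set_option autoImplicit false
open Pointwise

namespace CfsgLib.SolvSyl

open CfsgLib.SolvBasic CfsgLib.SolvMin CfsgLib.SolvCoprime
  CfsgLib.SolvNilp CfsgLib.SolvHall CfsgLib.SolvProd

universe u v

/-- if `G = H₁ H₂`, `M ≤ H₁` a `p`-group normalized by `H₁`, `p ∤ |G:H₂|` then the normal closure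
of `M` is in `H₂`. -/
theorem normalClosure_le {G : Type u} [Group G] [Finite G] {p : ℕ} (hp : p.Prime)
    (H₁ H₂ M : Subgroup G)
    (h12 : ∀ g : G, ∃ x ∈ H₁, ∃ y ∈ H₂, g = x * y)
    (hM : IsPGroup p M) (hn : H₁ ≤ Subgroup.normalizer (M : Set G)) (hd : ¬ p ∣ H₂.index) :
    Subgroup.normalClosure (M : Set G) ≤ H₂ := by
  have : Fact p.Prime := ⟨hp⟩
  -- Sylow p of H₂ is Sylow in G
  obtain ⟨S, hS⟩ := IsSylowIn.exists_isSylowIn (p := p) H₂
  have hSt : IsSylowIn p S (⊤ : Subgroup G) := by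
    refine ⟨le_top, hS.isPGroup, ?_⟩
    rw [Subgroup.relIndex_top_right, ← Subgroup.relIndex_mul_index hS.le]
    intro h
    rcases (Nat.Prime.dvd_mul hp).mp h with h1 | h1
    · exact hS.not_dvd h1
    · exact hd h1
  obtain ⟨T, hT, hMT⟩ := IsSylowIn.exists_ge hM (le_top : M ≤ ⊤)
  obtain ⟨g, -, hg⟩ := hT.exists_conj hSt
  have h1 : MulAut.conj g • M ≤ H₂ := by
    refine le_trans ?_ hS.le
    rw [← hg]
    exact Subgroup.pointwise_smul_le_pointwise_smul_iff.mpr hMT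
  have h2 : M ≤ H₂ := by
    obtain ⟨x, hx, y, hy, hxy⟩ := h12 g⁻¹
    have hgxy : g = y⁻¹ * x⁻¹ := by rw [← inv_inv g, hxy, mul_inv_rev]
    rw [hgxy, conj_smul_mul, mem_normalizer_iff_conj_smul.mp (inv_mem (hn hx))] at h1
    intro m hm
    have h3 : y⁻¹ * m * y ∈ H₂ := by
      apply h1
      rw [mem_conj_smul]
      have e : y⁻¹⁻¹ * (y⁻¹ * m * y) * y⁻¹ = m := by group
      rw [e]; exact hm
    have h4 := mul_mem (mul_mem hy h3) (inv_mem hy)
    have e : y * (y⁻¹ * m * y) * y⁻¹ = m := by group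
    rwa [e] at h4
  rw [Subgroup.normalClosure, Subgroup.closure_le]
  intro z hz
  rw [Group.mem_conjugatesOfSet_iff] at hz
  obtain ⟨m, hm, hc⟩ := hz
  rw [isConj_iff] at hc
  obtain ⟨g, rfl⟩ := hc
  obtain ⟨x, hx, y, hy, hxy⟩ := h12 g⁻¹
  have hgxy : g = y⁻¹ * x⁻¹ := by rw [← inv_inv g, hxy, mul_inv_rev]
  have h3 : x⁻¹ * m * x ∈ M := by
    have := (Subgroup.mem_normalizer_iff.mp (inv_mem (hn hx)) m).mp hm
    rwa [inv_inv] at this
  rw [hgxy]
  have e : y⁻¹ * x⁻¹ * m * (y⁻¹ * x⁻¹)⁻¹ = y⁻¹ * (x⁻¹ * m * x) * y := by group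
  rw [SetLike.mem_coe, e]
  exact mul_mem (mul_mem (inv_mem hy) (h2 h3)) hy

theorem three_solvable (n : ℕ) : ∀ (G : Type u) [Group G] [Finite G] (H₁ H₂ H₃ : Subgroup G)
    (_ : Nat.card G = n)
    (_ : Group.IsSolvable H₁) (_ : Group.IsSolvable H₂) (_ : Group.IsSolvable H₃)
    (_ : ∀ g : G, ∃ x ∈ H₁, ∃ y ∈ H₂, g = x * y) (_ : ∀ g : G, ∃ x ∈ H₁, ∃ y ∈ H₃, g = x * y)
    (_ : H₂.index.Coprime H₃.index), Group.IsSolvable G := by
  induction n using Nat.strong_induction_on with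
  | _ n ih =>
  intro G _ _ H₁ H₂ H₃ hn h₁ h₂ h₃ h12 h13 hcop
  by_cases hb : H₁ = ⊥
  · have : H₂ = ⊤ := by
      rw [eq_top_iff]
      intro g _
      obtain ⟨x, hx, y, hy, rfl⟩ := h12 g
      rw [hb, Subgroup.mem_bot] at hx
      rwa [hx, one_mul]
    rw [this] at h₂
    exact Group.isSolvable_of_isSolvable_injective (f := (Subgroup.topEquiv (G := G)).symm.toMonoidHom)
      (Subgroup.topEquiv (G := G)).symm.injective
  have hnt : Nontrivial H₁ := (Subgroup.nontrivial_iff_ne_bot H₁).mpr hb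
  obtain ⟨M, p, hp, hMmin, -, -, -, hMp⟩ :=
    exists_minNormal_pgroup_of_solvable (G := H₁) ⊤ top_ne_bot
  have hMn := hMmin.1
  obtain ⟨M', hM'⟩ : ∃ M', M' = M.map H₁.subtype := ⟨_, rfl⟩
  have hM'p : IsPGroup p M' := hM' ▸ hMp.map _
  have hM'1 : M' ≠ ⊥ := by
    rw [hM', Ne, Subgroup.map_eq_bot_iff_of_injective _ H₁.subtype_injective]
    exact hMmin.2.1
  have hM'n : H₁ ≤ Subgroup.normalizer (M' : Set G) := by
    have hle : M' ≤ H₁ := hM' ▸ Subgroup.map_subtype_le _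
    rw [← Subgroup.normal_subgroupOf_iff_le_normalizer hle, hM', Subgroup.subgroupOf,
      Subgroup.comap_map_eq_self_of_injective H₁.subtype_injective]
    exact hMn
  have hN : ∃ N : Subgroup G, N.Normal ∧ N ≠ ⊥ ∧ Group.IsSolvable N := by
    refine ⟨Subgroup.normalClosure (M' : Set G), inferInstance, ?_, ?_⟩
    · intro h
      apply hM'1
      rw [eq_bot_iff, ← h]
      exact Subgroup.subset_normalClosure
    · by_cases hd : p ∣ H₂.index
      · have hd' : ¬ p ∣ H₃.index := by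
          intro hd'
          have := Nat.dvd_gcd hd hd'
          rw [hcop] at this
          exact hp.not_dvd_one this
        exact Group.isSolvable_of_isSolvable_injective
          (Subgroup.inclusion_injective (normalClosure_le hp H₁ H₃ M' h13 hM'p hM'n hd'))
      · exact Group.isSolvable_of_isSolvable_injective
          (Subgroup.inclusion_injective (normalClosure_le hp H₁ H₂ M' h12 hM'p hM'n hd))
  obtain ⟨N, hNn, hN1, hNs⟩ := hN
  have hq : Group.IsSolvable (G ⧸ N) := by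
    have hsurj : Function.Surjective (QuotientGroup.mk' N) := QuotientGroup.mk'_surjective N
    apply ih (Nat.card (G ⧸ N)) (by rw [← hn]; exact card_quotient_lt N hN1) (G ⧸ N)
      (H₁.map (QuotientGroup.mk' N)) (H₂.map (QuotientGroup.mk' N)) (H₃.map (QuotientGroup.mk' N)) rfl
    · exact isSolvable_map _ _
    · exact isSolvable_map _ _
    · exact isSolvable_map _ _
    · intro g
      obtain ⟨g, rfl⟩ := hsurj g
      obtain ⟨x, hx, y, hy, rfl⟩ := h12 g
      exact ⟨_, ⟨x, hx, rfl⟩, _, ⟨y, hy, rfl⟩, map_mul _ _ _⟩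
    · intro g
      obtain ⟨g, rfl⟩ := hsurj g
      obtain ⟨x, hx, y, hy, rfl⟩ := h13 g
      exact ⟨_, ⟨x, hx, rfl⟩, _, ⟨y, hy, rfl⟩, map_mul _ _ _⟩
    · exact Nat.Coprime.coprime_dvd_left (H₂.index_map_dvd hsurj)
        (Nat.Coprime.coprime_dvd_right (H₃.index_map_dvd hsurj) hcop)
  exact Group.isSolvable_of_ker_le_range N.subtype (QuotientGroup.mk' N)
    (by rw [QuotientGroup.ker_mk', Subgroup.range_subtype])

end CfsgLib.SolvSyl
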