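import Mathlib
import Cfsg.Agent.EqBase
import Cfsg.Agent.LibSolvSyl
import Cfsg.Agent.S0144

/-! converse of Hall's theorem, Sylow systems -/

set_option autoImplicit false
open Pointwise

namespace CfsgLib.SolvSyl

open CfsgLib.SolvBasic CfsgLib.SolvMin CfsgLib.SolvCoprime
  CfsgLib.SolvNilp CfsgLib.SolvHall CfsgLib.SolvProd

universe u v

theorem factorization_eq_of_mul_coprime {a b q : ℕ} (ha : a ≠ 0) (hb : b ≠ 0)
    (h : ¬ q ∣ b) : (a * b).factorization q = a.factorization q := by
  rw [Nat.factorization_mul ha hb, Finsupp.add_apply, Nat.factorization_eq_zero_of_not_dvd h,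
    add_zero]

theorem relIndex_eq_index_of_coprime {G : Type u} [Group G] [Finite G] {H K : Subgroup G}
    (h : K.index.Coprime H.index) : K.relIndex H = K.index := by
  apply Nat.dvd_antisymm
  · have h1 : (K ⊓ H).relIndex H ≤ K.index := by
      rw [Subgroup.inf_relIndex_right]
      have := Subgroup.relIndex_le_of_le_right (H := K) (K := H) (L := ⊤) le_top
        (by rw [Subgroup.relIndex_top_right]; exact K.index_ne_zero_of_finite)
      rwa [Subgroup.relIndex_top_right] at this
    have h2 : K.index ∣ K.relIndex H * H.index := by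
      have h3 : (K ⊓ H).relIndex H * H.index = (K ⊓ H).index :=
        Subgroup.relIndex_mul_index inf_le_right
      rw [Subgroup.inf_relIndex_right] at h3
      rw [h3]
      exact Subgroup.index_dvd_of_le inf_le_left
    have h3 : K.index ∣ K.relIndex H := h.dvd_of_dvd_mul_right h2
    rw [Subgroup.inf_relIndex_right] at h1
    have h4 : K.relIndex H ≠ 0 := by
      rw [Subgroup.relIndex]; exact Subgroup.index_ne_zero_of_finite
    have h5 := Nat.le_of_dvd (Nat.pos_of_ne_zero h4) h3
    rw [le_antisymm h1 h5]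
  · have h2 : K.index ∣ K.relIndex H * H.index := by
      have h3 : (K ⊓ H).relIndex H * H.index = (K ⊓ H).index :=
        Subgroup.relIndex_mul_index inf_le_right
      rw [Subgroup.inf_relIndex_right] at h3
      rw [h3]
      exact Subgroup.index_dvd_of_le inf_le_left
    exact h.dvd_of_dvd_mul_right h2

/-- converse of Hall's theorem -/
theorem solvable_of_hall (n : ℕ) : ∀ (G : Type u) [Group G] [Finite G] (_ : Nat.card G = n)
    (_ : ∀ p : ℕ, p.Prime → ∃ H : Subgroup G, H.index = p ^ (Nat.card G).factorization p),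
    Group.IsSolvable G := by
  induction n using Nat.strong_induction_on with
  | _ n ih =>
  intro G _ _ hn h
  have hpos : Nat.card G ≠ 0 := Nat.card_pos.ne'
  -- complements are solvable
  have hcard : ∀ (p : ℕ) (hp : p.Prime) (H : Subgroup G),
      H.index = p ^ (Nat.card G).factorization p → ¬ p ∣ Nat.card H := by
    intro p hp H hH hd
    have h1 := H.card_mul_index
    have h2 : (Nat.card G).factorization p =
        (Nat.card H).factorization p + (Nat.card G).factorization p := by
      conv_lhs => rw [← h1]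
      rw [Nat.factorization_mul Nat.card_pos.ne' H.index_ne_zero_of_finite, Finsupp.add_apply, hH,
        hp.factorization_pow, Finsupp.single_eq_same]
    have h3 : (Nat.card H).factorization p = 0 := by omega
    rcases (Nat.factorization_eq_zero_iff _ _).mp h3 with h4 | h4 | h4
    · exact h4 hp
    · exact h4 hd
    · exact Nat.card_pos.ne' h4
  have hsol : ∀ (p : ℕ) (hp : p.Prime) (hpd : p ∣ Nat.card G) (H : Subgroup G),
      H.index = p ^ (Nat.card G).factorization p → Group.IsSolvable H := by
    intro p hp hpd H hH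
    have hHp := hcard p hp H hH
    have hHlt : Nat.card H < n := by
      rw [← hn]
      apply card_lt_of_ne_top
      rintro rfl
      rw [Subgroup.card_top] at hHp
      exact hHp hpd
    apply ih (Nat.card H) hHlt H rfl
    intro s hs
    by_cases hsp : s = p
    · subst hsp
      refine ⟨⊤, ?_⟩
      rw [Subgroup.index_top, Nat.factorization_eq_zero_of_not_dvd hHp, pow_zero]
    · obtain ⟨K, hK⟩ := h s hs
      refine ⟨K.subgroupOf H, ?_⟩
      have hco : H.index.Coprime K.index := by
        rw [hH, hK]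
        exact Nat.Coprime.pow _ _ ((Nat.coprime_primes hp hs).mpr (Ne.symm hsp))
      have h1 : (K.subgroupOf H).index = K.index := by
        change K.relIndex H = K.index
        exact relIndex_eq_index_of_coprime hco.symm
      rw [h1, hK]
      congr 1
      rw [← H.card_mul_index]
      apply factorization_eq_of_mul_coprime Nat.card_pos.ne' H.index_ne_zero_of_finite
      rw [hH]
      intro hd
      exact hsp ((Nat.prime_dvd_prime_iff_eq hs hp).mp (hs.dvd_of_dvd_pow hd))
  -- at most two primes
  by_cases h3 : ∃ p q r : ℕ, p ∈ (Nat.card G).primeFactors ∧ q ∈ (Nat.card G).primeFactors ∧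
      r ∈ (Nat.card G).primeFactors ∧ p ≠ q ∧ p ≠ r ∧ q ≠ r
  · obtain ⟨p, q, r, hp, hq, hr, hpq, hpr, hqr⟩ := h3
    have hp' := Nat.prime_of_mem_primeFactors hp
    have hq' := Nat.prime_of_mem_primeFactors hq
    have hr' := Nat.prime_of_mem_primeFactors hr
    obtain ⟨Hp, hHp⟩ := h p hp'
    obtain ⟨Hq, hHq⟩ := h q hq'
    obtain ⟨Hr, hHr⟩ := h r hr'
    have hcop : ∀ {a b : ℕ} (i j : ℕ), a.Prime → b.Prime → a ≠ b → (a ^ i).Coprime (b ^ j) :=
      fun i j ha hb hab => Nat.Coprime.pow _ _ ((Nat.coprime_primes ha hb).mpr hab)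
    have hprod : ∀ (H K : Subgroup G), H.index.Coprime K.index →
        ∀ g : G, ∃ x ∈ H, ∃ y ∈ K, g = x * y := by
      intro H K hHK g
      have h1 : K.relIndex H = K.index := relIndex_eq_index_of_coprime hHK.symm
      exact exists_eq_mul_of_relIndex_le (L := ⊤) le_top
        (by rw [h1, Subgroup.relIndex_top_right]) g (Subgroup.mem_top g)
    apply three_solvable _ G Hp Hq Hr rfl
    · exact hsol p hp' (Nat.dvd_of_mem_primeFactors hp) Hp hHp
    · exact hsol q hq' (Nat.dvd_of_mem_primeFactors hq) Hq hHq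
    · exact hsol r hr' (Nat.dvd_of_mem_primeFactors hr) Hr hHr
    · exact hprod _ _ (by rw [hHp, hHq]; exact hcop _ _ hp' hq' hpq)
    · exact hprod _ _ (by rw [hHp, hHr]; exact hcop _ _ hp' hr' hpr)
    · rw [hHq, hHr]; exact hcop _ _ hq' hr' hqr
  · -- Burnside
    have hpq : ∃ p q a b : ℕ, p.Prime ∧ q.Prime ∧ Nat.card G = p ^ a * q ^ b := by
      have hle : (Nat.card G).primeFactors.card ≤ 2 := by
        by_contra hlt
        push Not at hlt
        obtain ⟨p, hp, q, hq, r, hr, hpq, hpr, hqr⟩ := Finset.two_lt_card.mp hlt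
        exact h3 ⟨p, q, r, hp, hq, hr, hpq, hpr, hqr⟩
      have hG := Nat.prod_factorization_pow_eq_self hpos
      have hG' : ∏ p ∈ (Nat.card G).primeFactors, p ^ (Nat.card G).factorization p = Nat.card G := hG
      have hcases : (Nat.card G).primeFactors.card = 0 ∨ (Nat.card G).primeFactors.card = 1 ∨
        (Nat.card G).primeFactors.card = 2 := by omega
      rcases hcases with h0 | h1 | h2
      · rw [Finset.card_eq_zero] at h0
        rw [h0, Finset.prod_empty] at hG'
        exact ⟨2, 2, 0, 0, Nat.prime_two, Nat.prime_two, by rw [← hG']; simp⟩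
      · obtain ⟨p, hp⟩ := Finset.card_eq_one.mp h1
        have hp' : p.Prime := Nat.prime_of_mem_primeFactors (by rw [hp]; exact Finset.mem_singleton_self p)
        rw [hp, Finset.prod_singleton] at hG'
        exact ⟨p, 2, (Nat.card G).factorization p, 0, hp', Nat.prime_two, by
          rw [pow_zero, mul_one]; exact hG'.symm⟩
      · obtain ⟨p, q, hne, hpq⟩ := Finset.card_eq_two.mp h2
        have hp' : p.Prime := Nat.prime_of_mem_primeFactors (by rw [hpq]; simp)
        have hq' : q.Prime := Nat.prime_of_mem_primeFactors (by rw [hpq]; simp)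
        rw [hpq, Finset.prod_pair hne] at hG'
        exact ⟨p, q, _, _, hp', hq', hG'.symm⟩
    obtain ⟨p, q, a, b, hp, hq, hG⟩ := hpq
    exact Cfsg.Agent.S0144.main p q hp hq _ G a b rfl hG

/-! products of permuting subgroups -/

theorem coe_sup_of_permute {G : Type u} [Group G] {H K : Subgroup G}
    (h : (H : Set G) * (K : Set G) = (K : Set G) * (H : Set G)) :
    ((H ⊔ K : Subgroup G) : Set G) = (H : Set G) * (K : Set G) := by
  let L : Subgroup G :=
    { carrier := (H : Set G) * (K : Set G)
      mul_mem' := by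
        rintro _ _ ⟨a, ha, b, hb, rfl⟩ ⟨c, hc, d, hd, rfl⟩
        have h1 : b * c ∈ (H : Set G) * (K : Set G) := by
          rw [h]; exact ⟨b, hb, c, hc, rfl⟩
        obtain ⟨e, he, f, hf, hef⟩ := h1
        refine ⟨a * e, H.mul_mem ha he, f * d, K.mul_mem hf hd, ?_⟩
        change a * e * (f * d) = a * b * (c * d)
        have hef' : e * f = b * c := hef
        calc a * e * (f * d) = a * (e * f) * d := by group
          _ = a * (b * c) * d := by rw [hef']
          _ = _ := by group
      one_mem' := ⟨1, H.one_mem, 1, K.one_mem, mul_one 1⟩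
      inv_mem' := by
        rintro _ ⟨a, ha, b, hb, rfl⟩
        rw [h]
        exact ⟨b⁻¹, K.inv_mem hb, a⁻¹, H.inv_mem ha, (mul_inv_rev a b).symm⟩ }
  apply le_antisymm
  · have hle : H ⊔ K ≤ L := by
      apply sup_le
      · intro a ha; exact ⟨a, ha, 1, K.one_mem, mul_one a⟩
      · intro b hb; exact ⟨1, H.one_mem, b, hb, one_mul b⟩
    exact hle
  · rintro _ ⟨a, ha, b, hb, rfl⟩
    exact Subgroup.mul_mem_sup ha hb

theorem card_mul_of_disjoint {G : Type u} [Group G] [Finite G] {H K : Subgroup G}
    (h : H ⊓ K = ⊥) : ((H : Set G) * (K : Set G)).ncard = Nat.card H * Nat.card K := by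
  rw [← Nat.card_prod, ← Nat.card_coe_set_eq]
  symm
  apply Nat.card_congr
  refine Equiv.ofBijective (fun x : H × K => ⟨(x.1 : G) * x.2, ⟨x.1, x.1.2, x.2, x.2.2, rfl⟩⟩) ⟨?_, ?_⟩
  · rintro ⟨a, b⟩ ⟨c, d⟩ hab
    have h1 : (a : G) * b = c * d := congrArg Subtype.val hab
    have h2 : (c : G)⁻¹ * a = d * (b : G)⁻¹ := by
      rw [eq_mul_inv_iff_mul_eq, mul_assoc, h1, inv_mul_cancel_left]
    have h3 : (c : G)⁻¹ * a ∈ H ⊓ K :=
      Subgroup.mem_inf.mpr ⟨H.mul_mem (H.inv_mem c.2) a.2, by
        rw [h2]; exact K.mul_mem d.2 (K.inv_mem b.2)⟩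
    rw [h, Subgroup.mem_bot] at h3
    have h4 : (c : G) = a := (inv_mul_eq_one.mp h3)
    rw [h3] at h2
    have h5 : (d : G) = b := (mul_inv_eq_one.mp h2.symm)
    exact Prod.ext (Subtype.ext h4.symm) (Subtype.ext h5.symm)
  · rintro ⟨x, a, ha, b, hb, rfl⟩
    exact ⟨(⟨a, ha⟩, ⟨b, hb⟩), rfl⟩

/-- product of pairwise permuting Sylow subgroups -/
theorem exists_prod {G : Type u} [Group G] [Finite G]
    (S : (p : Nat.Primes) → Sylow (p : ℕ) G)
    (hS : ∀ p q : Nat.Primes, (S p : Set G) * (S q : Set G) = (S q : Set G) * (S p : Set G))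
    (π : Finset Nat.Primes) :
    ∃ H : Subgroup G, Nat.card H = ∏ p ∈ π, (p : ℕ) ^ (Nat.card G).factorization p ∧
      ∀ q : Nat.Primes, (H : Set G) * (S q : Set G) = (S q : Set G) * (H : Set G) := by
  classical
  induction π using Finset.induction_on with
  | empty =>
    refine ⟨⊥, by rw [Subgroup.card_bot, Finset.prod_empty], ?_⟩
    intro q
    rw [Subgroup.coe_bot]
    simp
  | insert p π hp ih =>
    obtain ⟨H, hH, hperm⟩ := ih
    have : Fact (p : ℕ).Prime := ⟨p.2⟩
    have hcardS : Nat.card (S p : Subgroup G) = (p : ℕ) ^ (Nat.card G).factorization p :=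
      (S p).card_eq_multiplicity
    have hdis : H ⊓ (S p : Subgroup G) = ⊥ := by
      apply inf_bot_of_coprime
      rw [hH, hcardS]
      apply Nat.Coprime.prod_left
      intro q hq
      apply Nat.Coprime.pow
      rw [Nat.coprime_primes q.2 p.2]
      intro h
      exact hp (Subtype.ext h ▸ hq)
    have hsup := coe_sup_of_permute (hperm p)
    refine ⟨H ⊔ (S p : Subgroup G), ?_, ?_⟩
    · rw [Finset.prod_insert hp, mul_comm, ← hH, ← hcardS, ← card_mul_of_disjoint hdis]
      have h1 : Nat.card (H ⊔ (S p : Subgroup G) : Subgroup G) =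
        (((H ⊔ (S p : Subgroup G) : Subgroup G) : Set G)).ncard := (Nat.card_coe_set_eq _).symm ▸ rfl
      rw [h1, hsup]
    · intro q
      have e1 := hperm q
      have e2 := hS p q
      have e0 : ((S p : Subgroup G) : Set G) = (S p : Set G) := rfl
      have e3 := hperm p
      rw [hsup]
      change (H : Set G) * (S p : Set G) * (S q : Set G) = (S q : Set G) * ((H : Set G) * (S p : Set G))
      rw [mul_assoc, e2, ← mul_assoc, e1, mul_assoc]

theorem solvable_of_sylow_system {G : Type u} [Group G] [Finite G]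
    (S : (p : Nat.Primes) → Sylow (p : ℕ) G)
    (hS : ∀ p q : Nat.Primes, (S p : Set G) * (S q : Set G) = (S q : Set G) * (S p : Set G)) :
    Group.IsSolvable G := by
  classical
  apply solvable_of_hall _ G rfl
  intro p hp
  obtain ⟨T, hT⟩ : ∃ T : Finset Nat.Primes, ∀ q : Nat.Primes, q ∈ T ↔ (q : ℕ) ∈ (Nat.card G).primeFactors ∧ (q : ℕ) ≠ p := by
    have hfin : {q : Nat.Primes | (q : ℕ) ∈ (Nat.card G).primeFactors ∧ (q : ℕ) ≠ p}.Finite :=
      ((Finset.finite_toSet (Nat.card G).primeFactors).preimage
        (Subtype.val_injective.injOn)).subset (fun q hq => hq.1)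
    exact ⟨hfin.toFinset, fun q => by rw [Set.Finite.mem_toFinset]; rfl⟩
  obtain ⟨H, hH, -⟩ := exists_prod S hS T
  refine ⟨H, ?_⟩
  have h1 : ∏ q ∈ T, (q : ℕ) ^ (Nat.card G).factorization q =
      ∏ q ∈ (Nat.card G).primeFactors.erase p, q ^ (Nat.card G).factorization q := by
    refine Finset.prod_bij (fun q _ => (q : ℕ)) ?_ ?_ ?_ ?_
    · intro q hq
      have := (hT q).mp hq
      exact Finset.mem_erase.mpr ⟨this.2, this.1⟩
    · intro a _ b _ hab; exact Subtype.ext hab
    · intro q hq
      have := Finset.mem_erase.mp hq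
      exact ⟨⟨q, Nat.prime_of_mem_primeFactors this.2⟩, (hT _).mpr ⟨this.2, this.1⟩, rfl⟩
    · intro q _; rfl
  have h2 : (∏ q ∈ (Nat.card G).primeFactors.erase p, q ^ (Nat.card G).factorization q) *
      p ^ (Nat.card G).factorization p = Nat.card G := by
    by_cases hpm : p ∈ (Nat.card G).primeFactors
    · rw [Finset.prod_erase_mul _ _ hpm]
      exact Nat.prod_factorization_pow_eq_self Nat.card_pos.ne'
    · rw [Finset.erase_eq_of_notMem hpm]
      have h3 : (Nat.card G).factorization p = 0 := by
        rw [← Finsupp.notMem_support_iff, Nat.support_factorization]; exact hpm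
      rw [h3, pow_zero, mul_one]
      exact Nat.prod_factorization_pow_eq_self Nat.card_pos.ne'
  have h4 := H.card_mul_index
  rw [hH, h1] at h4
  have h4' := h4.trans h2.symm
  have h5 : 0 < ∏ q ∈ (Nat.card G).primeFactors.erase p, q ^ (Nat.card G).factorization q := by
    apply Nat.pos_of_ne_zero
    intro h0
    rw [h0, zero_mul] at h2
    exact Nat.card_pos.ne h2
  have h6 := Nat.eq_of_mul_eq_mul_left h5 h4'
  exact h6

/-- in a finite solvable group there is a Sylow system -/
theorem exists_sylow_system {G : Type u} [Group G] [Finite G] [Group.IsSolvable G] :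
    ∃ S : (p : Nat.Primes) → Sylow (p : ℕ) G,
      ∀ p q : Nat.Primes, (S p : Set G) * (S q : Set G) = (S q : Set G) * (S p : Set G) := by
  classical
  have hpos : Nat.card G ≠ 0 := Nat.card_pos.ne'
  -- Hall p-complements
  have hK : ∀ p : ℕ, ∃ K : Subgroup G, p.Prime → K.index = p ^ (Nat.card G).factorization p := by
    intro p
    by_cases hp : p.Prime
    · have h1 : Nat.card G = (Nat.card G / p ^ (Nat.card G).factorization p) *
          p ^ (Nat.card G).factorization p :=
        (Nat.div_mul_cancel (Nat.ordProj_dvd _ _)).symm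
      obtain ⟨K, hK⟩ := hall_exists _ G rfl _ _ h1
        ((Nat.coprime_ordCompl hp hpos).symm.pow_right _)
      refine ⟨K, fun _ => ?_⟩
      have h2 := K.card_mul_index
      rw [hK] at h2
      nth_rw 3 [h1] at h2
      exact Nat.eq_of_mul_eq_mul_left (Nat.div_pos (Nat.ordProj_le _ hpos) (pow_pos hp.pos _)) h2
    · exact ⟨⊤, fun h => absurd h hp⟩
  choose K hK using hK
  obtain ⟨D, hD⟩ : ∃ D : Finset ℕ → Subgroup G, ∀ T, D T = ⨅ r ∈ T, K r := ⟨_, fun _ => rfl⟩
  let P := (Nat.card G).primeFactors
  have hidx : ∀ T : Finset ℕ, T ⊆ P → (D T).index ≤ ∏ r ∈ T, r ^ (Nat.card G).factorization r := by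
    intro T
    induction T using Finset.induction_on with
    | empty =>
      intro _
      rw [hD]; simp
    | insert r T hr ih =>
      intro hT
      have h1 : D (insert r T) = K r ⊓ D T := by
        rw [hD, hD, Finset.iInf_insert]
      rw [h1, Finset.prod_insert hr]
      refine (Subgroup.index_inf_le).trans ?_
      rw [hK r (Nat.prime_of_mem_primeFactors (hT (Finset.mem_insert_self r T)))]
      exact Nat.mul_le_mul_left _ (ih (fun x hx => hT (Finset.mem_insert_of_mem hx)))
  -- D T has order prime to all r ∈ T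
  have hKr : ∀ r ∈ P, ¬ r ∣ Nat.card (K r) := by
    intro r hr hd
    have hrp := Nat.prime_of_mem_primeFactors hr
    have h1 := (K r).card_mul_index
    rw [hK r hrp] at h1
    have h2 : (Nat.card G).factorization r =
        (Nat.card (K r)).factorization r + (Nat.card G).factorization r := by
      conv_lhs => rw [← h1]
      rw [Nat.factorization_mul Nat.card_pos.ne' (pow_pos hrp.pos _).ne', Finsupp.add_apply,
        hrp.factorization_pow, Finsupp.single_eq_same]
    have h3 : (Nat.card (K r)).factorization r = 0 := by omega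
    rcases (Nat.factorization_eq_zero_iff _ _).mp h3 with h4 | h4 | h4
    · exact h4 hrp
    · exact h4 hd
    · exact Nat.card_pos.ne' h4
  have hDr : ∀ T : Finset ℕ, T ⊆ P → ∀ r ∈ T, ¬ r ∣ Nat.card (D T) := by
    intro T hT r hr hd
    apply hKr r (hT hr)
    refine hd.trans (Subgroup.card_dvd_of_le ?_)
    rw [hD]
    exact iInf₂_le r hr
  have hcard : ∀ T : Finset ℕ, T ⊆ P → Nat.card (D T) = ∏ r ∈ P \ T, r ^ (Nat.card G).factorization r := by
    intro T hT
    have hprod : (∏ r ∈ P \ T, r ^ (Nat.card G).factorization r) *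
        (∏ r ∈ T, r ^ (Nat.card G).factorization r) = Nat.card G := by
      rw [Finset.prod_sdiff hT]
      exact Nat.prod_factorization_pow_eq_self hpos
    apply le_antisymm
    · apply Nat.le_of_dvd
      · apply Nat.pos_of_ne_zero
        intro h0
        rw [h0, zero_mul] at hprod
        exact hpos hprod.symm
      · have h1 : Nat.card (D T) ∣ (∏ r ∈ P \ T, r ^ (Nat.card G).factorization r) *
          (∏ r ∈ T, r ^ (Nat.card G).factorization r) := by
          rw [hprod]; exact Subgroup.card_subgroup_dvd_card _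
        refine Nat.Coprime.dvd_of_dvd_mul_right ?_ h1
        apply Nat.Coprime.prod_right
        intro r hr
        apply Nat.Coprime.pow_right
        rw [Nat.coprime_comm, Nat.Prime.coprime_iff_not_dvd (Nat.prime_of_mem_primeFactors (hT hr))]
        exact hDr T hT r hr
    · have h1 := (D T).card_mul_index
      have h2 : (∏ r ∈ P \ T, r ^ (Nat.card G).factorization r) *
        (∏ r ∈ T, r ^ (Nat.card G).factorization r) ≤
          Nat.card (D T) * (∏ r ∈ T, r ^ (Nat.card G).factorization r) := by
        rw [hprod]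
        exact h1.ge.trans (Nat.mul_le_mul_left _ (hidx T hT))
      have h3 : 0 < ∏ r ∈ T, r ^ (Nat.card G).factorization r := by
        apply Nat.pos_of_ne_zero
        intro h0
        rw [h0, mul_zero] at hprod
        exact hpos hprod.symm
      exact Nat.le_of_mul_le_mul_right h2 h3
  -- the Sylow subgroups
  have hScard : ∀ p : Nat.Primes, Nat.card (D (P.erase p)) = (p : ℕ) ^ (Nat.card G).factorization p := by
    intro p
    rw [hcard _ (Finset.erase_subset _ _)]
    by_cases hp : (p : ℕ) ∈ P
    · have : P \ P.erase (p : ℕ) = {(p : ℕ)} := by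
        ext x; simp only [Finset.mem_sdiff, Finset.mem_erase, Finset.mem_singleton, not_and]
        constructor
        · rintro ⟨h1, h2⟩
          by_contra hne
          exact h2 hne h1
        · rintro rfl
          exact ⟨hp, fun h => absurd rfl h⟩
      rw [this, Finset.prod_singleton]
    · rw [Finset.erase_eq_of_notMem hp, Finset.sdiff_self, Finset.prod_empty]
      have h3 : (Nat.card G).factorization p = 0 := by
        rw [← Finsupp.notMem_support_iff, Nat.support_factorization]; exact hp
      rw [h3, pow_zero]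
  refine ⟨fun p => haveI : Fact (p : ℕ).Prime := ⟨p.2⟩
    (Sylow.ofCard (D (P.erase p)) (hScard p)), ?_⟩
  intro p q
  change ((D (P.erase p) : Subgroup G) : Set G) * (D (P.erase q) : Subgroup G) =
    ((D (P.erase q) : Subgroup G) : Set G) * (D (P.erase p) : Subgroup G)
  by_cases hpq : p = q
  · rw [hpq]
  have hpq' : (p : ℕ) ≠ (q : ℕ) := fun h => hpq (Subtype.ext h)
  have hdis : D (P.erase p) ⊓ D (P.erase q) = ⊥ := by
    apply inf_bot_of_coprime
    rw [hScard, hScard]
    exact Nat.Coprime.pow _ _ ((Nat.coprime_primes p.2 q.2).mpr hpq')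
  have hsub : (P.erase p).erase q ⊆ P := (Finset.erase_subset _ _).trans (Finset.erase_subset _ _)
  have hL : Nat.card (D ((P.erase p).erase q)) = Nat.card (D (P.erase p)) * Nat.card (D (P.erase q)) := by
    rw [hcard _ hsub, hScard, hScard]
    have h1 : ∀ x : Nat.Primes, (x : ℕ) ∉ P → (Nat.card G).factorization x = 0 := by
      intro x hx
      rw [← Finsupp.notMem_support_iff, Nat.support_factorization]; exact hx
    have h2 : P \ ((P.erase (p : ℕ)).erase (q : ℕ)) = P ∩ {(p : ℕ), (q : ℕ)} := by
      ext x; simp only [Finset.mem_sdiff, Finset.mem_erase, Finset.mem_inter, Finset.mem_insert,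
        Finset.mem_singleton]
      tauto
    have h3 : ∏ r ∈ P ∩ {(p : ℕ), (q : ℕ)}, r ^ (Nat.card G).factorization r =
        ∏ r ∈ {(p : ℕ), (q : ℕ)}, r ^ (Nat.card G).factorization r := by
      apply Finset.prod_subset Finset.inter_subset_right
      intro x hx hx'
      have hxP : x ∉ P := fun h => hx' (Finset.mem_inter.mpr ⟨h, hx⟩)
      have h4 : (Nat.card G).factorization x = 0 := by
        rw [← Finsupp.notMem_support_iff, Nat.support_factorization]; exact hxP
      rw [h4, pow_zero]
    rw [h2, h3, Finset.prod_pair hpq']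
  have hmono : ∀ A B : Finset ℕ, A ⊆ B → D B ≤ D A := by
    intro A B hAB
    rw [hD, hD]
    exact biInf_mono hAB
  have hle1 : D (P.erase p) ≤ D ((P.erase p).erase q) := hmono _ _ (Finset.erase_subset _ _)
  have hle2 : D (P.erase q) ≤ D ((P.erase p).erase q) := hmono _ _ (by
    intro x hx
    rw [Finset.mem_erase, Finset.mem_erase] at hx
    exact Finset.mem_erase.mpr ⟨hx.1, hx.2.2⟩)
  have key : ∀ A B L : Subgroup G, A ≤ L → B ≤ L → A ⊓ B = ⊥ → Nat.card L = Nat.card A * Nat.card B →
      (A : Set G) * (B : Set G) = L := by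
    intro A B L hA hB hAB hc
    apply Set.eq_of_subset_of_ncard_le _ _ (Set.toFinite _)
    · rintro _ ⟨a, ha, b, hb, rfl⟩
      exact L.mul_mem (hA ha) (hB hb)
    · rw [card_mul_of_disjoint hAB, ← hc, ← Nat.card_coe_set_eq]
      exact le_rfl
  rw [key _ _ _ hle1 hle2 hdis hL, key _ _ _ hle2 hle1 (by rw [inf_comm]; exact hdis) (by rw [mul_comm]; exact hL)]

end CfsgLib.SolvSyl
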