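import Mathlib
import Cfsg.Agent.LibFrm2
import Cfsg.Agent.LibSolvSyl2

/-!
# Fully ramified characters and complements, III (helper17)
-/

set_option autoImplicit false
set_option linter.unusedSectionVars false
set_option linter.style.haveILetI false
set_option linter.unusedVariables false

namespace CfsgLib.Frm

open Cfsg CfsgLib.CharBasic CfsgLib.Clifford CfsgLib.Extend CfsgLib.CharIndA CfsgLib.CharNorm
  CfsgLib.CharMore
open scoped ComplexConjugate

universe u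

variable {G : Type u} [Group G] [Fintype G] {Z K : Subgroup G} [hZ : Z.Normal] [hK : K.Normal]

theorem index_eq {Q : Type u} [Group Q] [Finite Q] {p : ℕ} [hp : Fact p.Prime] {M : Subgroup Q}
    (h1 : ¬ p ∣ Nat.card M) (h2 : ∃ i, M.index = p ^ i) : M.index = p ^ (Nat.card Q).factorization p := by
  obtain ⟨i, hi⟩ := h2
  have h3 := Subgroup.card_mul_index M
  rw [hi, ← h3, Nat.factorization_mul Nat.card_pos.ne' (by rw [hi]; exact (pow_pos hp.out.pos i).ne'),
    hi]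
  rw [Finsupp.add_apply, Nat.factorization_eq_zero_of_not_dvd h1, zero_add,
    hp.out.factorization_pow, Finsupp.single_eq_same]

/-- S4564 -/
theorem s4564 {χ : G → ℂ} (hχ : IsIrrCharacter G χ) (hfr : ∃ (θ : IrrCharacter Z) (e : ℕ),
    e ^ 2 = Z.index ∧ ∀ z : Z, χ z = (e : ℂ) * (θ : Z → ℂ) z) (hZK : Z ≤ K) (p : ℕ) [hp : Fact p.Prime]
    (P : Sylow p (G ⧸ K)) (hcyc : IsCyclic P) :
    ∃ M : Subgroup (G ⧸ K), M.IsComplement' (P : Subgroup (G ⧸ K)) := by
  classical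
  obtain ⟨θ, e, he, hr⟩ := hfr
  obtain ⟨S, rfl⟩ := Sylow.mapSurjective_surjective (QuotientGroup.mk'_surjective K) p P
  haveI : Fintype Z := Fintype.ofFinite _
  haveI : Fintype (P0 Z K S) := Fintype.ofFinite _
  obtain ⟨ξ, s, c, I, E, -, -, hs0, -, hA, hB, hE, hc, hM⟩ := key hZK S hχ θ.2 he hr
  have hc1 : c = 1 := hc hcyc
  rw [hc1, one_mul] at hA hB
  have hQ : Z.relIndex (P0 Z K S) * (P0 Z K S).relIndex (PP Z S) = Z.relIndex (PP Z S) :=
    Subgroup.relIndex_mul_relIndex _ _ _ (Z_le_P0 hZK S) (P0_le S)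
  have hE0 : 0 < E := by
    rcases Nat.eq_zero_or_pos E with h | h
    · exfalso
      rw [h] at hE
      exact Subgroup.index_ne_zero_of_finite (H := Z.subgroupOf (PP Z S)) hE.symm
    · exact h
  have h1 : I = (P0 Z K S).relIndex (PP Z S) := by
    have h2 : E * (s * (P0 Z K S).relIndex (PP Z S)) = E * E := by
      rw [← mul_assoc, ← hA, hQ, ← hE, pow_two]
    have h3 := Nat.eq_of_mul_eq_mul_left hE0 h2
    rw [hB, mul_comm I s] at h3
    exact (Nat.eq_of_mul_eq_mul_left hs0 h3).symm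
  obtain ⟨M, hM1, hM2⟩ := hM h1
  refine ⟨M, ?_⟩
  have h4 := index_eq hM1 hM2
  set P := Sylow.mapSurjective (QuotientGroup.mk'_surjective K) S
  have h5 : Nat.card (P : Subgroup (G ⧸ K)) = p ^ (Nat.card (G ⧸ K)).factorization p := P.card_eq_multiplicity
  apply Subgroup.isComplement'_of_coprime
  · rw [h5, ← h4]; exact Subgroup.card_mul_index M
  · rw [h5]
    exact Nat.Coprime.pow_right _ (((Nat.Prime.coprime_iff_not_dvd hp.out).2 hM1).symm)

/-- the arithmetic of the induced case -/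
theorem arith {p R0 Q R a0 s c I E m w f RK i : ℕ} (hp : p.Prime) (hA : c * R0 = E * s)
    (hB : E = c * I * s) (hE : E ^ 2 = R) (hQ : R0 * Q = R) (hR : R ≠ 0) (hs : 0 < s)
    (hRK : R0 * a0 = RK) (hm : m * f ^ 2 = RK) (hf : f = w * s) (hQm : Q ∣ m) (hQp : Q = p ^ i)
    (ha : ¬ p ∣ a0) : I = Q := by
  have hE0 : 0 < E := by
    rcases Nat.eq_zero_or_pos E with h | h
    · rw [h] at hE; exact absurd hE.symm (by simpa using hR)
    · exact h
  have hc0 : 0 < c := by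
    rcases Nat.eq_zero_or_pos c with h | h
    · rw [h] at hB; simp at hB; omega
    · exact h
  have h1 : R0 = I * s ^ 2 := by
    apply Nat.eq_of_mul_eq_mul_left hc0
    rw [hA, hB]; ring
  have hs2 : 0 < s ^ 2 := pow_pos hs 2
  have hI0 : 0 < I := by
    rcases Nat.eq_zero_or_pos I with h | h
    · rw [h] at hB; simp at hB; omega
    · exact h
  have h2 : m * w ^ 2 = I * a0 := by
    apply Nat.eq_of_mul_eq_mul_right hs2
    have : m * w ^ 2 * s ^ 2 = m * f ^ 2 := by rw [hf]; ring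
    rw [this, hm, ← hRK, h1]; ring
  have h3 : Q ∣ I := by
    have h4 : Q ∣ I * a0 := by rw [← h2]; exact Dvd.dvd.mul_right hQm _
    have h5 : Nat.Coprime Q a0 := by
      rw [hQp]; exact Nat.Coprime.pow_left i ((Nat.Prime.coprime_iff_not_dvd hp).2 ha)
    exact h5.dvd_of_dvd_mul_right h4
  have h4 : c ^ 2 * I = Q := by
    have h5 : 0 < I * s ^ 2 := Nat.mul_pos hI0 hs2
    apply Nat.eq_of_mul_eq_mul_left h5
    calc I * s ^ 2 * (c ^ 2 * I) = (c * I * s) ^ 2 := by ring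
      _ = E ^ 2 := by rw [← hB]
      _ = R0 * Q := by rw [hE, hQ]
      _ = I * s ^ 2 * Q := by rw [h1]
  exact Nat.dvd_antisymm ⟨c ^ 2, by rw [← h4]; ring⟩ h3

/-- an irreducible constituent inducing `χ` -/
theorem irr_of_ind {χ : G → ℂ} (hχ : IsIrrCharacter G χ) (K : Subgroup G) [Fintype K] {φ : K → ℂ}
    (hφ : IsCharacter K φ) (hind : indFun K φ = χ) :
    ∃ ψ : K → ℂ, IsIrrCharacter K ψ ∧ classInner (fun h : K => χ h) ψ ≠ 0 ∧
      χ 1 = (K.index : ℂ) * ψ 1 := by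
  have hφ0 : φ ≠ 0 := by
    rintro rfl
    rw [ind_zero] at hind
    exact irr_one_ne_zero hχ (by rw [← hind]; rfl)
  obtain ⟨ψ, hψ, hψ0⟩ := exists_constituent hφ hφ0
  obtain ⟨r, hr, hφr⟩ := split_off hφ hψ hψ0
  have h1 : indFun K ψ + indFun K r = χ := by rw [← ind_add, ← hφr, hind]
  have hi0 : (K.index : ℂ) ≠ 0 := by exact_mod_cast Subgroup.index_ne_zero_of_finite
  have h2 : indFun K ψ 1 ≠ 0 := by
    rw [ind_one]; exact mul_ne_zero hi0 (irr_one_ne_zero hψ)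
  have h3 : indFun K r 1 = 0 := by
    by_contra h
    exact not_irr_add (isCharacter_ind K (irr_isCharacter hψ)) (isCharacter_ind K hr) h2 h (by rw [h1]; exact hχ)
  refine ⟨ψ, hψ, ?_, ?_⟩
  · have h4 : indFun K ψ ≠ 0 := fun h => h2 (by rw [h]; rfl)
    obtain ⟨χ', hχ', hχ0⟩ := exists_constituent (isCharacter_ind K (irr_isCharacter hψ)) h4
    have h5 : classInner χ χ' ≠ 0 := by
      obtain ⟨a, ha⟩ := char_mult (isCharacter_ind K (irr_isCharacter hψ)) (irr_isCharacter hχ')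
      obtain ⟨b, hb⟩ := char_mult (isCharacter_ind K hr) (irr_isCharacter hχ')
      rw [← h1, ci_add_l, ha, hb]
      rw [ha] at hχ0
      have : a ≠ 0 := fun h => hχ0 (by rw [h]; simp)
      exact_mod_cast (by omega : a + b ≠ 0)
    have h6 : χ = χ' := by
      by_contra hne
      exact h5 (irr_inner_ne hχ hχ' hne)
    rw [← h6, frobenius K ψ (irr_classFun hχ)] at hχ0
    intro h7
    exact hχ0 (ci_zero_comm h7)
  · rw [← h1]
    show indFun K ψ 1 + indFun K r 1 = _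
    rw [h3, add_zero, ind_one]

/-- S4563 -/
theorem s4563 {χ : G → ℂ} (hχ : IsIrrCharacter G χ) (hfr : ∃ (θ : IrrCharacter Z) (e : ℕ),
    e ^ 2 = Z.index ∧ ∀ z : Z, χ z = (e : ℂ) * (θ : Z → ℂ) z) [Fintype K] (hZK : Z ≤ K)
    (φ : K → ℂ) (hφ : IsCharacter K φ) (hind : indFun K φ = χ) : Group.IsSolvable (G ⧸ K) := by
  classical
  obtain ⟨θ, e, he, hr⟩ := hfr
  haveI : Fintype Z := Fintype.ofFinite _
  apply CfsgLib.SolvSyl.solvable_of_hall _ (G ⧸ K) rfl
  intro p hp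
  haveI : Fact p.Prime := ⟨hp⟩
  obtain ⟨S⟩ : Nonempty (Sylow p G) := inferInstance
  haveI : Fintype (P0 Z K S) := Fintype.ofFinite _
  obtain ⟨ξ, s, c, I, E, hξ, hξr, hs0, huniq, hA, hB, hE, hc, hM⟩ := key hZK S hχ θ.2 he hr
  obtain ⟨ψ, hψ, hψ0, hψ1⟩ := irr_of_ind hχ K hφ hind
  have hχK : IsCharacter K (fun h : K => χ h) := isCharacter_restrict (irr_isCharacter hχ) K
  have h1 : resT hZK (fun h : K => χ h) = (e : ℂ) • (θ : Z → ℂ) := funext hr
  have h2 : classInner (resT hZK ψ) (θ : Z → ℂ) ≠ 0 := below_of_ram hZK hχK hψ hψ0 θ.2 h1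
  have h3 := resT_of_invariant hZ hZK hψ θ.2 (fun t _ => cj_inv_of hZ hχ he hr t) h2
  obtain ⟨f, hf⟩ := char_mult (resT_char hZK (irr_isCharacter hψ)) (irr_isCharacter θ.2)
  rw [hf] at h3
  obtain ⟨d, hd0, hd⟩ := irr_one_nat θ.2
  have hd0' : (d : ℂ) ≠ 0 := by exact_mod_cast hd0.ne'
  have hψ1' : ψ 1 = (f : ℂ) * d := by
    have := congrFun h3 1
    have h4 : resT hZK ψ 1 = ψ 1 := rfl
    rw [h4] at this
    rw [this, Pi.smul_apply, smul_eq_mul, hd]
  have hχ1 : χ 1 = (e : ℂ) * d := by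
    have := hr 1
    rw [hd] at this
    exact this
  have hef : e = K.index * f := by
    have : (e : ℂ) = K.index * f := by
      apply mul_right_cancel₀ hd0'
      rw [← hχ1, hψ1, hψ1']; ring
    exact_mod_cast this
  have hm0 : 0 < K.index := Nat.pos_of_ne_zero Subgroup.index_ne_zero_of_finite
  have hm : K.index * f ^ 2 = Z.relIndex K := by
    have h4 : Z.relIndex K * K.index = Z.index := Subgroup.relIndex_mul_index hZK
    rw [← he, hef] at h4
    apply Nat.eq_of_mul_eq_mul_right hm0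
    rw [h4]; ring
  -- s ∣ f
  have h0K : P0 Z K S ≤ K := inf_le_right
  have hψP : IsCharacter (P0 Z K S) (resT h0K ψ) := resT_char h0K (irr_isCharacter hψ)
  obtain ⟨mm, hmm, hexp, -⟩ := char_expand hψP
  have hξ1 : ξ 1 = (s : ℂ) * d := by
    have := congrFun hξr 1
    have h4 : resT (Z_le_P0 hZK S) ξ 1 = ξ 1 := rfl
    rw [h4] at this
    rw [this, Pi.smul_apply, smul_eq_mul, hd]
  have hw : f = (∑ χ' : IrrCharacter (P0 Z K S), mm χ') * s := by
    have h4 := congrFun hexp 1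
    have h5 : resT h0K ψ 1 = ψ 1 := rfl
    rw [h5, hψ1', Finset.sum_apply] at h4
    have h6 : ∀ χ' : IrrCharacter (P0 Z K S), ((mm χ' : ℂ) • (χ' : P0 Z K S → ℂ)) 1 = (mm χ' : ℂ) * ((s : ℂ) * d) := by
      intro χ'
      rw [Pi.smul_apply, smul_eq_mul]
      by_cases h0 : mm χ' = 0
      · rw [h0]; simp
      · have h7 : classInner (resT h0K ψ) χ' ≠ 0 := by rw [hmm]; exact_mod_cast h0
        have h8 : classInner (resT (Z_le_P0 hZK S) (χ' : P0 Z K S → ℂ)) (θ : Z → ℂ) ≠ 0 :=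
          below_of_ram (Z_le_P0 hZK S) hψP χ'.2 h7 θ.2 (e := f) h3
        rw [huniq _ χ'.2 h8, hξ1]
    rw [Finset.sum_congr rfl fun χ' _ => h6 χ', ← Finset.sum_mul, ← mul_assoc] at h4
    have h7 := mul_right_cancel₀ hd0' h4
    exact_mod_cast h7
  have hQm : (P0 Z K S).relIndex (PP Z S) ∣ K.index := by
    have h4 : (P0 Z K S).relIndex (PP Z S) = K.relIndex (PP Z S) := by
      unfold P0; rw [Subgroup.inf_relIndex_left]
    rw [h4]
    exact Subgroup.relIndex_dvd_index_of_normal K _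
  have hQ : Z.relIndex (P0 Z K S) * (P0 Z K S).relIndex (PP Z S) = Z.relIndex (PP Z S) :=
    Subgroup.relIndex_mul_relIndex _ _ _ (Z_le_P0 hZK S) (P0_le S)
  obtain ⟨j, hj⟩ := PP_rel (Z := Z) S
  obtain ⟨i, -, hi⟩ := (Nat.dvd_prime_pow hp).1 (hj ▸ Dvd.intro_left _ hQ : (P0 Z K S).relIndex (PP Z S) ∣ p ^ j)
  have hI := arith (RK := Z.relIndex K) hp hA hB hE hQ
    (Subgroup.index_ne_zero_of_finite (H := Z.subgroupOf (PP Z S))) hs0
    (Subgroup.relIndex_mul_relIndex _ _ _ (Z_le_P0 hZK S) h0K) hm hw hQm hi (P0_rel_K S)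
  obtain ⟨M, hM1, hM2⟩ := hM hI
  exact ⟨M, index_eq hM1 hM2⟩

end CfsgLib.Frm
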