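import Cfsg.Agent.EqBase
/-!
# Frobenius groups from semidirect products (helper19)
-/
set_option autoImplicit false
set_option linter.all false
open Cfsg
open scoped Pointwise
namespace CfsgLib.Frob19

variable {G : Type*} [Group G] [Finite G]

theorem mem_conj_iff (g x : G) (H : Subgroup G) : x ∈ MulAut.conj g • H ↔ g⁻¹ * x * g ∈ H := by
  rw [Subgroup.mem_pointwise_smul_iff_inv_smul_mem, ← map_inv, MulAut.smul_def, MulAut.conj_apply, inv_inv]

/-- `P` normal, `H` a complement, centralizers of nontrivial elements of `P` inside `P`: Frobenius group. -/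
theorem frob_of_centralizers (P H : Subgroup G) [P.Normal] (hc : Subgroup.IsComplement' P H)
    (hP : P ≠ ⊥) (hH : H ≠ ⊥)
    (hcent : ∀ z ∈ P, z ≠ 1 → ∀ x : G, x * z = z * x → x ∈ P) :
    IsFrobeniusComplement H ∧ frobeniusKernel H = (P : Set G) := by
  have hdisj : ∀ x, x ∈ P → x ∈ H → x = 1 := by
    intro x h1 h2
    have := hc.disjoint
    rw [disjoint_iff] at this
    have h3 : x ∈ P ⊓ H := ⟨h1, h2⟩
    rw [this] at h3
    exact Subgroup.mem_bot.1 h3
  have hfac : ∀ g : G, ∃ z ∈ P, ∃ h ∈ H, g = z * h := by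
    intro g
    obtain ⟨⟨z, h⟩, hzh⟩ := hc.surjective g
    exact ⟨z, z.2, h, h.2, hzh.symm⟩
  refine ⟨⟨hH, ?_, ?_⟩, ?_⟩
  · intro htop
    apply hP
    rw [Subgroup.eq_bot_iff_forall]
    intro x hx
    exact hdisj x hx (by rw [htop]; trivial)
  · intro g hg
    rw [Subgroup.eq_bot_iff_forall]
    rintro x ⟨hx1, hx2⟩
    replace hx1 : x ∈ H := hx1
    replace hx2 : x ∈ MulAut.conj g • H := hx2
    rw [mem_conj_iff] at hx2
    -- g⁻¹ = z * h, i.e. g = h⁻¹ z⁻¹
    obtain ⟨z, hz, h, hh, hg1⟩ := hfac g⁻¹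
    have hgz : g = h⁻¹ * z⁻¹ := by
      have := congrArg (·⁻¹) hg1
      simpa using this
    have hz1 : z ≠ 1 := by
      rintro rfl
      apply hg
      rw [hgz]; simpa using hh
    rw [hgz] at hx2
    set x' := h * x * h⁻¹ with hx'
    have h1 : x' ∈ H := H.mul_mem (H.mul_mem hh hx1) (H.inv_mem hh)
    have h2 : z * x' * z⁻¹ ∈ H := by
      have : (h⁻¹ * z⁻¹)⁻¹ * x * (h⁻¹ * z⁻¹) = z * x' * z⁻¹ := by rw [hx']; group
      rwa [this] at hx2
    have h3 : z * x' * z⁻¹ * x'⁻¹ = 1 := by
      apply hdisj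
      · have h4 : x' * z⁻¹ * x'⁻¹ ∈ P := ‹P.Normal›.conj_mem _ (P.inv_mem hz) _
        have h5 := P.mul_mem hz h4
        have h6 : z * (x' * z⁻¹ * x'⁻¹) = z * x' * z⁻¹ * x'⁻¹ := by group
        rwa [h6] at h5
      · exact H.mul_mem h2 (H.inv_mem h1)
    have h4 : x' * z = z * x' := by
      have h5 : z * x' * z⁻¹ = x' := mul_inv_eq_one.1 h3
      calc x' * z = z * x' * z⁻¹ * z := by rw [h5]
        _ = z * x' := by group
    have h5 : x' ∈ P := hcent z hz hz1 x' h4
    have h6 : x' = 1 := hdisj _ h5 h1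
    rw [hx'] at h6
    have h7 : h * x = h := mul_inv_eq_one.1 h6
    exact mul_eq_left.1 h7
  · ext x
    simp only [frobeniusKernel, Set.mem_setOf_eq, SetLike.mem_coe]
    constructor
    · rintro (rfl | hx)
      · exact P.one_mem
      · by_contra hxP
        obtain ⟨z, hz, h, hh, rfl⟩ := hfac x
        have hh1 : h ≠ 1 := by
          rintro rfl
          rw [mul_one] at hxP
          exact hxP hz
        let f : P → P := fun w => ⟨w * (h * (w : G)⁻¹ * h⁻¹), P.mul_mem w.2 (‹P.Normal›.conj_mem _ (P.inv_mem w.2) _)⟩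
        have hinj : Function.Injective f := by
          intro v w hvw
          have h1 : (v : G) * (h * (v : G)⁻¹ * h⁻¹) = w * (h * (w : G)⁻¹ * h⁻¹) := congrArg Subtype.val hvw
          by_contra hne
          have h2 : h * ((w : G)⁻¹ * v) = ((w : G)⁻¹ * v) * h := by
            have h3 : (v : G) * h * (v : G)⁻¹ = w * h * (w : G)⁻¹ := by
              have := congrArg (· * h) h1
              simpa [mul_assoc] using this
            calc h * ((w : G)⁻¹ * v) = (w : G)⁻¹ * (w * h * (w : G)⁻¹) * v := by group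
              _ = (w : G)⁻¹ * ((v : G) * h * (v : G)⁻¹) * v := by rw [h3]
              _ = _ := by group
          have h3 : (w : G)⁻¹ * v ≠ 1 := by
            intro h4
            apply hne
            exact Subtype.ext (inv_mul_eq_one.1 h4).symm
          have h4 := hcent _ (P.mul_mem (P.inv_mem w.2) v.2) h3 h h2
          exact hh1 (hdisj h h4 hh)
        obtain ⟨w, hw⟩ := Finite.surjective_of_injective hinj ⟨z, hz⟩
        have hw' : (w : G) * (h * (w : G)⁻¹ * h⁻¹) = z := congrArg Subtype.val hw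
        apply hx w
        rw [mem_conj_iff, ← hw']
        have : (w : G)⁻¹ * ((w : G) * (h * (w : G)⁻¹ * h⁻¹) * h) * w = h := by group
        rw [this]; exact hh
    · intro hx
      by_cases hx1 : x = 1
      · exact Or.inl hx1
      right
      intro g hg
      rw [mem_conj_iff] at hg
      have h1 : g⁻¹ * x * g ∈ P := by
        have := ‹P.Normal›.conj_mem x hx g⁻¹
        simpa using this
      have h2 := hdisj _ h1 hg
      apply hx1
      have : x = g * (g⁻¹ * x * g) * g⁻¹ := by group
      rw [this, h2]; simp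

end CfsgLib.Frob19
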