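import Cfsg.Agent.LibFrob6c

set_option autoImplicit false

namespace CfsgLib.Frob6

open Cfsg
open CfsgLib.CharBasic CfsgLib.CharIndA
open scoped Pointwise ComplexConjugate

/-- counting for TI-sets -/
theorem card_union2 {G : Type*} [Group G] [Finite G] (N : Subgroup G) (D : Set G)
    (hDn : ∀ x ∈ N, ∀ d ∈ D, x⁻¹ * d * x ∈ D)
    (hTI : ∀ x d : G, d ∈ D → x⁻¹ * d * x ∈ D → x ∈ N) :
    Nat.card G * D.ncard = {y : G | ∃ g : G, g⁻¹ * y * g ∈ D}.ncard * Nat.card N := by
  classical
  have := Fintype.ofFinite G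
  set T : Finset G := Finset.univ.filter (fun y => ∃ g : G, g⁻¹ * y * g ∈ D) with hT
  have hTn : T.card = {y : G | ∃ g : G, g⁻¹ * y * g ∈ D}.ncard := by
    rw [← Set.ncard_coe_finset]
    congr 1
    ext y
    simp [hT]
  have h := Finset.card_mul_eq_card_mul (s := (Finset.univ : Finset G)) (t := T)
    (r := fun x y => x⁻¹ * y * x ∈ D) (m := D.ncard) (n := Nat.card N) ?_ ?_
  · rw [Finset.card_univ, ← Nat.card_eq_fintype_card] at h
    rw [h, hTn]
  · intro x _
    rw [← Set.ncard_coe_finset]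
    have h1 : ((T.bipartiteAbove (fun x y => x⁻¹ * y * x ∈ D) x : Finset G) : Set G) =
        (fun z => x * z * x⁻¹) '' D := by
      ext y
      simp only [Finset.coe_bipartiteAbove, hT, Finset.mem_filter, Finset.mem_univ, true_and, Set.mem_image,
        Set.mem_ofPred_eq]
      constructor
      · rintro ⟨-, hy2⟩
        exact ⟨x⁻¹ * y * x, hy2, by group⟩
      · rintro ⟨z, hz, rfl⟩
        have : x⁻¹ * (x * z * x⁻¹) * x = z := by group
        exact ⟨⟨x, by rw [this]; exact hz⟩, by rw [this]; exact hz⟩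
    rw [h1, Set.ncard_image_of_injective]
    intro a b hab
    simpa using hab
  · intro y hy
    rw [hT, Finset.mem_filter] at hy
    obtain ⟨-, g, hg⟩ := hy
    rw [← Set.ncard_coe_finset]
    have h1 : ((Finset.univ.bipartiteBelow (fun x y => x⁻¹ * y * x ∈ D) y : Finset G) : Set G) =
        (fun z => g * z) '' (N : Set G) := by
      ext x
      simp only [Finset.coe_bipartiteBelow, Finset.mem_univ, true_and, Set.mem_image, Set.mem_ofPred_eq,
        SetLike.mem_coe]
      constructor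
      · intro hx
        refine ⟨g⁻¹ * x, ?_, by group⟩
        apply hTI _ _ hg
        have : (g⁻¹ * x)⁻¹ * (g⁻¹ * y * g) * (g⁻¹ * x) = x⁻¹ * y * x := by group
        rw [this]; exact hx
      · rintro ⟨z, hz, rfl⟩
        have : (g * z)⁻¹ * y * (g * z) = z⁻¹ * (g⁻¹ * y * g) * z := by group
        rw [this]
        exact hDn z hz _ hg
    rw [h1, Set.ncard_image_of_injective _ (mul_right_injective g)]
    rfl

theorem ind_restrict2 {G : Type*} [Group G] [Fintype G] (N : Subgroup G) (φ : N → ℂ)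
    (hc : IsClassFunction N φ)
    (h1 : ∀ (d : N) (x : G), x * d * x⁻¹ ∈ N → x ∉ N → φ d = 0) (h : N) : indFun N φ h = φ h := by
  classical
  rw [ind_apply]
  have h2 : ∀ x : G, extendByZero N φ (x⁻¹ * (h : G) * x) = if x ∈ N then φ h else 0 := by
    intro x
    split_ifs with hx
    · have hm : x⁻¹ * (h : G) * x ∈ N := N.mul_mem (N.mul_mem (N.inv_mem hx) h.2) hx
      rw [ext_mem N φ hm]
      have h3 := hc h (⟨x, hx⟩⁻¹)
      rw [← h3]
      congr 1
      apply Subtype.ext
      simp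
    · by_cases hm : x⁻¹ * (h : G) * x ∈ N
      · rw [ext_mem N φ hm]
        apply h1 ⟨_, hm⟩ x _ hx
        have : x * (x⁻¹ * (h : G) * x) * x⁻¹ = h := by group
        show x * (x⁻¹ * (h : G) * x) * x⁻¹ ∈ N
        rw [this]; exact h.2
      · exact ext_not_mem N φ hm
  rw [Finset.sum_congr rfl (fun x _ => h2 x), Finset.sum_ite, Finset.sum_const_zero, add_zero, Finset.sum_const,
    nsmul_eq_mul]
  have h3 : (Finset.univ.filter (fun x : G => x ∈ N)).card = Nat.card N := by
    rw [Nat.card_eq_fintype_card, ← Fintype.card_subtype]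
  rw [h3]
  have h4 : (Nat.card N : ℂ) ≠ 0 := by exact_mod_cast Nat.card_pos.ne'
  field_simp

theorem exists_ext_char2 {G : Type*} [Group G] [Fintype G] (N : Subgroup G) {θ : N → ℂ}
    (hθ : IsIrrCharacter N θ)
    (hz : ∀ (d : N) (x : G), x * d * x⁻¹ ∈ N → x ∉ N → θ d = θ 1) :
    ∃ χ : G → ℂ, IsIrrCharacter G χ ∧ (∀ h : N, χ h = θ h) ∧
      (∀ x : G, (∀ (g : G) (hm : g⁻¹ * x * g ∈ N), θ ⟨g⁻¹ * x * g, hm⟩ = θ 1) → χ x = χ 1) := by
  classical
  haveI := Fintype.ofFinite N
  obtain ⟨n, hn, hn1⟩ := irr_one_nat hθ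
  have hθc := irr_classFun hθ
  set φ : N → ℂ := θ - (n : ℂ) • (fun _ => 1 : N → ℂ) with hφ
  have hφd : ∀ d : N, θ d = θ 1 → φ d = 0 := by
    intro d hd
    simp [hφ, hd, hn1]
  have hφc : IsClassFunction N φ := by
    intro g h
    simp [hφ, hθc g h]
  have hφgen : IsGeneralizedCharacter N φ := by
    rw [hφ]
    refine ⟨θ, n • (fun _ => 1 : N → ℂ), irr_isCharacter hθ, isCharacter_nsmul isCharacter_one n, ?_⟩
    congr 1
    ext x
    simp
  have hrs := ind_restrict2 N φ hφc (fun d x hx hxN => hφd d (hz d x hx hxN))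
  have hres : (fun h : N => indFun N φ h) = φ := by
    ext h; exact hrs h
  set χ : G → ℂ := indFun N φ + (n : ℂ) • (fun _ => 1 : G → ℂ) with hχ
  have hone : ∀ h : N, χ h = θ h := by
    intro h
    rw [hχ, Pi.add_apply, hrs h]
    simp [hφ]
  have hgen : IsGeneralizedCharacter G χ := by
    rw [hχ]
    apply gen_add (gen_ind N hφgen)
    refine ⟨n • (fun _ => 1 : G → ℂ), 0, isCharacter_nsmul isCharacter_one n, isCharacter_zero, ?_⟩
    rw [sub_zero]
    ext x
    simp
  have hIH : classInner (fun _ => 1 : N → ℂ) (fun _ => 1) = 1 := by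
    simp [classInner]
  have hIG : classInner (fun _ => 1 : G → ℂ) (fun _ => 1) = 1 := by
    simp [classInner]
  have hconst : IsClassFunction G (fun _ => 1 : G → ℂ) := fun _ _ => rfl
  -- inner products
  have e1 : classInner (indFun N φ) (indFun N φ) = classInner φ φ := by
    rw [frobenius N φ (ind_classFun N φ), hres]
  have e2 : classInner (indFun N φ) (fun _ => 1) = classInner φ (fun _ => 1) := by
    rw [frobenius N φ hconst]
  have e3 : classInner (fun _ => 1) (indFun N φ) = classInner (fun _ => 1) φ := by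
    rw [frobenius' N φ hconst]
  have hnorm : classInner χ χ = 1 := by
    have h2 : classInner χ χ = classInner θ θ := by
      have h3 : θ = φ + (n : ℂ) • (fun _ => 1 : N → ℂ) := by rw [hφ]; simp
      rw [hχ]
      conv_rhs => rw [h3]
      simp only [CharBasic.inner_add_left, CharBasic.inner_add_right, CharBasic.inner_smul_left,
        CharBasic.inner_smul_right, e1, e2, e3, hIH, hIG]
    rw [h2, irr_inner_self hθ]
  have hχ1 : χ 1 = n := by
    have := hone 1
    rw [hn1] at this
    simpa using this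
  refine ⟨χ, ?_, hone, ?_⟩
  · rcases gen_norm_one hgen hnorm with h | h
    · exact h
    · exfalso
      obtain ⟨m, hm, hm1⟩ := irr_one_nat h
      rw [Pi.neg_apply, hχ1] at hm1
      have : (n : ℤ) + m = 0 := by
        have h5 : ((n : ℂ) + m) = 0 := by rw [← hm1]; ring
        exact_mod_cast h5
      omega
  · intro x hx
    rw [hχ1, hχ, Pi.add_apply, ind_apply, Finset.sum_eq_zero]
    · simp
    · intro g _
      by_cases hm : g⁻¹ * x * g ∈ N
      · rw [ext_mem N φ hm]
        exact hφd _ (hx g hm)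
      · exact ext_not_mem N φ hm

/-- Let `π : N → H` be a retraction onto `H ≤ N` such that the elements of `N` outside the kernel of `π`
form a TI-set with normalizer `N`. Then `H` has a normal complement in `G`. -/
theorem normal_complement_of_retraction {G : Type*} [Group G] [Finite G] {H N : Subgroup G} (hHN : H ≤ N)
    (π : N →* H) (hπ : ∀ h : H, π (Subgroup.inclusion hHN h) = h)
    (hTI : ∀ (d : N) (x : G), x * d * x⁻¹ ∈ N → π d ≠ 1 → x ∈ N) :
    ∃ M : Subgroup G, M.Normal ∧ Subgroup.IsComplement' M H := by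
  classical
  have := Fintype.ofFinite G
  set S : Set G := {x : G | ∀ (g : G) (hm : g⁻¹ * x * g ∈ N), π ⟨g⁻¹ * x * g, hm⟩ = 1} with hS
  let K : {χ : G → ℂ // IsIrrCharacter G χ ∧ ∀ x ∈ S, χ x = χ 1} → Subgroup G :=
    fun χ => (exists_kernel (irr_isCharacter χ.2.1)).choose
  have hK1 : ∀ χ, (K χ).Normal := fun χ => (exists_kernel (irr_isCharacter χ.2.1)).choose_spec.1
  have hK2 : ∀ χ, ∀ g, g ∈ K χ ↔ χ.1 g = χ.1 1 := fun χ => (exists_kernel (irr_isCharacter χ.2.1)).choose_spec.2
  set M : Subgroup G := ⨅ χ, K χ with hM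
  have hMn : M.Normal := Subgroup.normal_iInf_normal hK1
  have hπs : Function.Surjective π := fun h => ⟨_, hπ h⟩
  have hinf : ∀ x, x ∈ M → x ∈ H → x = 1 := by
    intro x hx hxH
    have h1 : IsConj (⟨x, hxH⟩ : H) 1 := by
      rw [isConj_iff_irr]
      intro θ
      have hθ' : IsIrrCharacter N (fun d => (θ : H → ℂ) (π d)) := isIrrCharacter_comp_surj θ.2 π hπs
      obtain ⟨χ, hχ, hres, hker⟩ := exists_ext_char2 N hθ' (by
        intro d y hy hyN
        have : π d = 1 := by
          by_contra h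
          exact hyN (hTI d y hy h)
        rw [this, map_one])
      have h2 := hres (Subgroup.inclusion hHN ⟨x, hxH⟩)
      have h3 := hres 1
      rw [hπ] at h2
      rw [map_one] at h3
      rw [← h2, ← h3]
      rw [hM, Subgroup.mem_iInf] at hx
      have h4 := (hK2 ⟨χ, hχ, fun y hy => hker y (fun g hm => by rw [hy g hm, map_one])⟩ x).mp (hx _)
      simpa using h4
    rw [isConj_one_left] at h1 
    exact congrArg Subtype.val h1
  have hSM : S ⊆ M := by
    intro x hx
    show x ∈ M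
    rw [hM, Subgroup.mem_iInf]
    intro χ
    rw [hK2]
    exact χ.2.2 x hx
  -- counting
  set D : Set G := {y : G | ∃ hy : y ∈ N, π ⟨y, hy⟩ ≠ 1} with hD
  have hcount := card_union2 N D (by
      rintro x hx d ⟨hd, hd1⟩
      refine ⟨N.mul_mem (N.mul_mem (N.inv_mem hx) hd) hx, ?_⟩
      intro h
      apply hd1
      have h2 : (⟨x⁻¹ * d * x, N.mul_mem (N.mul_mem (N.inv_mem hx) hd) hx⟩ : N) = ⟨x, hx⟩⁻¹ * ⟨d, hd⟩ * ⟨x, hx⟩ := rfl
      rw [h2, map_mul, map_mul, map_inv] at h
      have h3 : π ⟨d, hd⟩ = π ⟨x, hx⟩ * ((π ⟨x, hx⟩)⁻¹ * π ⟨d, hd⟩ * π ⟨x, hx⟩) * (π ⟨x, hx⟩)⁻¹ := by group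
      rw [h3, h]; group) (by
      rintro x d ⟨hd, hd1⟩ ⟨hx, hx1⟩
      apply hTI ⟨_, hx⟩ x _ hx1
      have : x * (x⁻¹ * d * x) * x⁻¹ = d := by group
      show x * (x⁻¹ * d * x) * x⁻¹ ∈ N
      rw [this]; exact hd)
  have hcompl : {y : G | ∃ g : G, g⁻¹ * y * g ∈ D} = Sᶜ := by
    ext y
    simp only [hD, hS, Set.mem_ofPred_eq, Set.mem_compl_iff, not_forall]
  have hkerc : Nat.card π.ker * Nat.card H = Nat.card N := by
    have h1 := Subgroup.card_mul_index π.ker
    rwa [Subgroup.index_ker, MonoidHom.range_eq_top.mpr hπs, Subgroup.card_top] at h1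
  have hDc : D.ncard + Nat.card π.ker = Nat.card N := by
    have h1 : D = N.subtype '' ((π.ker : Set N)ᶜ) := by
      ext y
      constructor
      · rintro ⟨hy, hy1⟩
        exact ⟨⟨y, hy⟩, hy1, rfl⟩
      · rintro ⟨⟨z, hz⟩, hz1, rfl⟩
        exact ⟨hz, hz1⟩
    rw [h1, Set.ncard_image_of_injective _ N.subtype_injective, add_comm]
    exact Set.ncard_add_ncard_compl (π.ker : Set N)
  have hSc : S.ncard + Sᶜ.ncard = Nat.card G := Set.ncard_add_ncard_compl S
  rw [hcompl] at hcount
  have hSH : S.ncard * Nat.card H = Nat.card G := by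
    have hp1 : 0 < Nat.card π.ker := Nat.card_pos
    have hp2 : 0 < Nat.card N := Nat.card_pos
    have hp3 : 0 < Nat.card G := Nat.card_pos
    -- |G| (|N| - |ker|) = (|G| - |S|) |N|
    have h1 : S.ncard * Nat.card N = Nat.card G * Nat.card π.ker := by
      have e1 : Nat.card G * (D.ncard + Nat.card π.ker) = (S.ncard + Sᶜ.ncard) * Nat.card N := by rw [hDc, hSc]
      rw [mul_add, add_mul, hcount] at e1
      omega
    rw [← hkerc] at h1
    have h2 : (S.ncard * Nat.card H) * Nat.card π.ker = Nat.card G * Nat.card π.ker := by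
      rw [← h1]; ring
    exact Nat.eq_of_mul_eq_mul_right hp1 h2
  have hdisj : M ⊓ H = ⊥ := by
    rw [eq_bot_iff]
    intro x hx
    rw [Subgroup.mem_inf] at hx
    rw [Subgroup.mem_bot]
    exact hinf x hx.1 hx.2
  have hMS : S.ncard ≤ Nat.card M := Set.ncard_le_ncard hSM (Set.toFinite _)
  have hMH : Nat.card M * Nat.card H ≤ Nat.card G := by
    have h1 := CfsgLib.SolvBasic.card_sup_of_normal M H
    rw [hdisj, Subgroup.card_bot, mul_one] at h1
    rw [← h1]
    exact Subgroup.card_le_card_group _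
  have hMc : Nat.card M * Nat.card H = Nat.card G := by
    apply le_antisymm hMH
    rw [← hSH]
    exact Nat.mul_le_mul_right _ hMS
  exact ⟨M, hMn, Subgroup.isComplement'_of_card_mul_and_disjoint hMc (disjoint_iff.mpr hdisj)⟩

end CfsgLib.Frob6
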