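import Mathlib.GroupTheory.PGroup
import Mathlib.GroupTheory.Sylow

set_option autoImplicit false

namespace CfsgLib.Fus21

/-- a nontrivial normal subgroup of a finite `p`-group contains a nontrivial central element -/
theorem exists_central_mem {G : Type*} [Group G] {p : ℕ} [hp : Fact p.Prime] {T U : Subgroup G} [Finite U]
    (hU : IsPGroup p U) (hTU : T ≤ U) (hn : ∀ u ∈ U, ∀ t ∈ T, u * t * u⁻¹ ∈ T) (hT : T ≠ ⊥) :
    ∃ x ∈ T, x ≠ 1 ∧ ∀ u ∈ U, u * x = x * u := by
  letI : MulAction U T :=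
    { smul := fun u t => ⟨u * t * (u : G)⁻¹, hn u u.2 t t.2⟩
      one_smul := fun t => Subtype.ext (by show (1 : G) * t * 1⁻¹ = t; group)
      mul_smul := fun u v t => Subtype.ext (by
        show ((u : G) * v) * t * ((u : G) * v)⁻¹ = u * (v * t * (v : G)⁻¹) * (u : G)⁻¹
        group) }
  haveI : Finite T := Finite.of_injective _ (Subgroup.inclusion_injective hTU)
  have hnt : Nontrivial T := (Subgroup.nontrivial_iff_ne_bot T).2 hT
  have hTp := hU.to_le hTU
  obtain ⟨n, hn'⟩ := IsPGroup.iff_card.1 hTp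
  have h2 : p ∣ Nat.card T := by
    rw [hn']
    refine dvd_pow_self p ?_
    rintro rfl
    have h1 : 1 < Nat.card T := Finite.one_lt_card
    rw [hn', pow_zero] at h1
    exact lt_irrefl _ h1
  obtain ⟨x, hx, hx1⟩ := hU.exists_fixed_point_of_prime_dvd_card_of_fixed_point T h2 (a := 1) (by
    intro u
    apply Subtype.ext
    show (u : G) * 1 * (u : G)⁻¹ = 1
    group)
  refine ⟨x, x.2, fun h => hx1 (Subtype.ext h.symm), fun u hu => ?_⟩
  have h3 := congrArg Subtype.val (hx ⟨u, hu⟩)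
  have h4 : u * x * u⁻¹ = x := h3
  exact mul_inv_eq_iff_eq_mul.1 h4

end CfsgLib.Fus21
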