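import Cfsg.Agent.LibFus21Basic

set_option autoImplicit false

/-! Free groups with a group permuting the basis. -/

namespace CfsgLib.Fus21

open FreeGroup

section HN

variable {Y : Type*} [DecidableEq Y] {W : Type*} [Group W] [MulAction W Y]

theorem word_cons (a : Y × Bool) (v : FreeGroup Y) :
    (toWord (mk [a] * v) = a :: toWord v) ∨ ∃ w, toWord v = (a.1, !a.2) :: w ∧ toWord (mk [a] * v) = w := by
  have h1 : toWord (mk [a] * v) = reduce (a :: toWord v) := by
    rw [toWord_mul, toWord_mk, reduce_singleton, List.singleton_append]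
  rw [h1, reduce.cons, reduce_toWord]
  cases h : toWord v with
  | nil => left; rfl
  | cons b w =>
    by_cases hab : a.1 = b.1 ∧ a.2 = !b.2
    · right
      refine ⟨w, ?_, by simp [hab]⟩
      congr 1
      ext
      · exact hab.1.symm
      · rw [hab.2, Bool.not_not]
    · left
      simp only
      rw [if_neg hab]

/-- `W` acting on the free group -/
def actF (Y : Type*) (W : Type*) [Group W] [MulAction W Y] : W →* MulAut (FreeGroup Y) where
  toFun w := FreeGroup.freeGroupCongr (MulAction.toPerm w)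
  map_one' := by
    apply MulEquiv.toMonoidHom_injective
    apply FreeGroup.ext_hom
    intro a
    simp [FreeGroup.freeGroupCongr]
  map_mul' a b := by
    apply MulEquiv.toMonoidHom_injective
    apply FreeGroup.ext_hom
    intro c
    simp [FreeGroup.freeGroupCongr, mul_smul]

theorem actF_mk (w : W) (L : List (Y × Bool)) : actF Y W w (mk L) = mk (L.map fun a => (w • a.1, a.2)) := rfl

theorem toWord_actF (w : W) (v : FreeGroup Y) : toWord (actF Y W w v) = (toWord v).map fun a => (w • a.1, a.2) := by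
  conv_lhs => rw [← mk_toWord (x := v)]
  rw [actF_mk, toWord_mk]
  apply IsReduced.reduce_eq
  have h := isReduced_toWord (x := v)
  unfold FreeGroup.IsReduced at h ⊢
  rw [List.isChain_map]
  refine h.imp fun a b hab h' => hab (smul_left_cancel w h')

theorem norm_actF (w : W) (v : FreeGroup Y) : FreeGroup.norm (actF Y W w v) = FreeGroup.norm v := by
  unfold FreeGroup.norm
  rw [toWord_actF, List.length_map]

end HN

theorem exists_perm {A : Type*} [Group A] [Finite A] {P Q : Subgroup A} (f : P ≃* Q) :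
    ∃ σ : Equiv.Perm A, ∀ (x : P) (t : A), σ (t * (x : A)⁻¹) = σ t * ((f x : Q) : A)⁻¹ := by
  have hc : Nat.card (A ⧸ P) = Nat.card (A ⧸ Q) := by
    have h1 := P.card_eq_card_quotient_mul_card_subgroup
    have h2 := Q.card_eq_card_quotient_mul_card_subgroup
    rw [← Nat.card_congr f.toEquiv, h1] at h2
    exact Nat.eq_of_mul_eq_mul_right Nat.card_pos h2
  obtain ⟨b⟩ : Nonempty ((A ⧸ P) ≃ (A ⧸ Q)) := Finite.card_eq.1 hc
  have hmem : ∀ t : A, ((t : A ⧸ P).out)⁻¹ * t ∈ P := fun t => by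
    rw [← QuotientGroup.eq, QuotientGroup.out_eq']
  let g : A → A := fun t => (b (t : A ⧸ P)).out * ((f ⟨_, hmem t⟩ : Q) : A)
  have hg : ∀ t, ((g t : A) : A ⧸ Q) = b (t : A ⧸ P) := by
    intro t
    show (((b (t : A ⧸ P)).out * ((f ⟨_, hmem t⟩ : Q) : A) : A) : A ⧸ Q) = _
    rw [QuotientGroup.mk_mul_of_mem _ (f ⟨_, hmem t⟩).2, QuotientGroup.out_eq']
  have hinj : Function.Injective g := by
    intro t t' h
    have h1 : (t : A ⧸ P) = (t' : A ⧸ P) := by
      apply b.injective
      rw [← hg, ← hg, h]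
    have h2 : (b (t : A ⧸ P)).out * ((f ⟨_, hmem t⟩ : Q) : A) = (b (t' : A ⧸ P)).out * ((f ⟨_, hmem t'⟩ : Q) : A) := h
    have h2' : (b (t : A ⧸ P)).out = (b (t' : A ⧸ P)).out := by rw [h1]
    rw [h2'] at h2
    have h3 := f.injective (Subtype.ext (mul_left_cancel h2))
    have h4 := congrArg Subtype.val h3
    simp only at h4
    rw [h1] at h4
    exact mul_left_cancel h4
  refine ⟨Equiv.ofBijective g (Finite.injective_iff_bijective.1 hinj), fun x t => ?_⟩
  show (b ((t * (x : A)⁻¹ : A) : A ⧸ P)).out * ((f ⟨_, hmem _⟩ : Q) : A) = (b (t : A ⧸ P)).out * ((f ⟨_, hmem t⟩ : Q) : A) * ((f x : Q) : A)⁻¹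
  have h1 : ((t * (x : A)⁻¹ : A) : A ⧸ P) = (t : A ⧸ P) := QuotientGroup.mk_mul_of_mem _ (P.inv_mem x.2)
  have h2 : (⟨_, hmem (t * (x : A)⁻¹)⟩ : P) = ⟨_, hmem t⟩ * x⁻¹ := by
    apply Subtype.ext
    show (((t * (x : A)⁻¹ : A) : A ⧸ P).out)⁻¹ * (t * (x : A)⁻¹) = ((t : A ⧸ P).out)⁻¹ * t * (x : A)⁻¹
    rw [h1, mul_assoc]
  rw [h2, _root_.map_mul, _root_.map_inv, h1, mul_assoc]
  rfl

end CfsgLib.Fus21
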