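import Cfsg.Agent.LibFus21In1

set_option autoImplicit false

/-! Groups generated by a finite group and stable letters, inside a semidirect product of a free group. -/

namespace CfsgLib.Fus21

/-- data -/
structure HNData (A Y W I : Type*) [Group A] [Group W] [MulAction W Y] where
  lam : A →* W
  lam_inj : Function.Injective lam
  y : I → Y
  sg : I → W
  Pd : I → Subgroup A
  f : ∀ i, Pd i →* A
  rel : ∀ i (x : Pd i), sg i * lam x * (sg i)⁻¹ = lam (f i x)
  stab : ∀ i (w : W), w • y i = y i ↔ ∃ x : Pd i, w = lam (f i x)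
  disj : ∀ i j (w : W), w • y i = y j → i = j

namespace HNData

variable {A Y W I : Type*} [Group A] [Group W] [MulAction W Y] (D : HNData A Y W I)

/-- the big group -/
abbrev Gam (Y W : Type*) [Group W] [MulAction W Y] := FreeGroup Y ⋊[actF Y W] W

/-- the embedding of `A` -/
def io : A →* Gam Y W := SemidirectProduct.inr.comp D.lam

/-- stable letters -/
def tt (i : I) : Gam Y W := ⟨FreeGroup.of (D.y i), D.sg i⟩

/-- signed stable letters -/
def te (i : I) : Bool → Gam Y W
  | true => D.tt i
  | false => (D.tt i)⁻¹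

/-- first letter -/
def tz (i : I) : Bool → Y
  | true => D.y i
  | false => (D.sg i)⁻¹ • D.y i

/-- permutation part -/
def ts (i : I) : Bool → W
  | true => D.sg i
  | false => (D.sg i)⁻¹

theorem te_left (i : I) (e : Bool) : (D.te i e).left = FreeGroup.mk [(D.tz i e, e)] := by
  cases e
  · rfl
  · rfl

theorem te_right (i : I) (e : Bool) : (D.te i e).right = D.ts i e := by
  cases e
  · rfl
  · rfl

theorem te_not (i : I) (e : Bool) : D.te i (!e) = (D.te i e)⁻¹ := by
  cases e
  · exact (inv_inv _).symm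
  · rfl

theorem ts_tz (i : I) (e : Bool) : D.ts i e • D.tz i (!e) = D.tz i e := by
  cases e
  · rfl
  · exact smul_inv_smul _ _

theorem left_te_mul (i : I) (e : Bool) (g : Gam Y W) :
    (D.te i e * g).left = FreeGroup.mk [(D.tz i e, e)] * actF Y W (D.ts i e) g.left := by
  rw [SemidirectProduct.mul_left, te_left, te_right]

theorem left_io (a : A) : (D.io a).left = 1 := rfl

theorem right_io (a : A) : (D.io a).right = D.lam a := rfl

theorem left_io_mul (a : A) (g : Gam Y W) : (D.io a * g).left = actF Y W (D.lam a) g.left := by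
  rw [SemidirectProduct.mul_left, left_io, right_io, one_mul]

theorem left_mul_io (a : A) (g : Gam Y W) : (g * D.io a).left = g.left := by
  rw [SemidirectProduct.mul_left, left_io, map_one, mul_one]

theorem io_inj : Function.Injective D.io := fun a b h => D.lam_inj (SemidirectProduct.inr_injective h)

theorem tt_rel (i : I) (x : D.Pd i) : D.tt i * D.io x = D.io (D.f i x) * D.tt i := by
  apply SemidirectProduct.ext
  · rw [left_mul_io, left_io_mul]
    show FreeGroup.of (D.y i) = FreeGroup.of (D.lam (D.f i x) • D.y i)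
    rw [(D.stab i _).2 ⟨x, rfl⟩]
  · show D.sg i * D.lam x = D.lam (D.f i x) * D.sg i
    rw [← D.rel]; group

/-- the relation given by a signed stable letter -/
def R (i : I) : Bool → A → A → Prop
  | true => fun a b => ∃ x : D.Pd i, a = D.f i x ∧ b = x
  | false => fun a b => ∃ x : D.Pd i, a = x ∧ b = D.f i x

theorem R_rel {i : I} {e : Bool} {a b : A} (h : D.R i e a b) : (D.te i e)⁻¹ * D.io a * D.te i e = D.io b := by
  cases e
  · obtain ⟨x, rfl, rfl⟩ := h
    show ((D.tt i)⁻¹)⁻¹ * D.io x * (D.tt i)⁻¹ = _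
    rw [inv_inv, tt_rel]; group
  · obtain ⟨x, rfl, rfl⟩ := h
    show (D.tt i)⁻¹ * D.io (D.f i x) * D.tt i = _
    rw [mul_assoc, ← tt_rel]; group

theorem pinch {i : I} {e : Bool} {a : A} (h : D.lam a • D.tz i e = D.tz i e) : ∃ b, D.R i e a b := by
  cases e
  · have h1 : (D.sg i * D.lam a * (D.sg i)⁻¹) • D.y i = D.y i := by
      have h2 : D.lam a • ((D.sg i)⁻¹ • D.y i) = (D.sg i)⁻¹ • D.y i := h
      rw [mul_smul, mul_smul, h2, smul_inv_smul]
    obtain ⟨x, hx⟩ := (D.stab i _).1 h1
    rw [← D.rel] at hx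
    have h3 : D.lam a = D.lam x := mul_left_cancel (mul_right_cancel hx)
    exact ⟨_, x, D.lam_inj h3, rfl⟩
  · obtain ⟨x, hx⟩ := (D.stab i _).1 h
    exact ⟨_, x, D.lam_inj hx, rfl⟩

variable [DecidableEq Y]

/-- reduced expressions -/
inductive Rd : Gam Y W → Prop
  | base (a : A) : Rd (D.io a)
  | step (a : A) (i : I) (e : Bool) (g : Gam Y W) : Rd g →
      FreeGroup.toWord (D.te i e * g).left = (D.tz i e, e) :: FreeGroup.toWord (actF Y W (D.ts i e) g.left) →
      Rd (D.io a * (D.te i e * g))

theorem rd_io (a : A) {g : Gam Y W} (h : D.Rd g) : D.Rd (D.io a * g) := by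
  cases h with
  | base b =>
    rw [← map_mul]; exact Rd.base _
  | step b i e g hg hr =>
    rw [← mul_assoc, ← map_mul]
    exact Rd.step _ i e g hg hr

theorem rd_te (i : I) (e : Bool) {g : Gam Y W} (h : D.Rd g) : D.Rd (D.te i e * g) := by
  rcases word_cons (D.tz i e, e) (actF Y W (D.ts i e) g.left) with h1 | ⟨w, h1, -⟩
  · have h2 := Rd.step 1 i e g h (by rw [left_te_mul]; exact h1)
    rwa [map_one, one_mul] at h2
  · cases h with
    | base b =>
      exfalso
      rw [left_io, map_one, FreeGroup.toWord_one] at h1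
      exact List.cons_ne_nil _ _ h1.symm
    | step b j e' g' hg' hr =>
      rw [left_io_mul, toWord_actF, toWord_actF, hr] at h1
      simp only [List.map_cons, List.cons.injEq, Prod.mk.injEq] at h1
      obtain ⟨⟨h2, h3⟩, -⟩ := h1
      subst h3
      have hij : j = i := by
        cases e
        · refine D.disj j i (D.lam b) ?_
          exact smul_left_cancel _ h2
        · refine D.disj j i (D.sg i * D.lam b * (D.sg j)⁻¹) ?_
          rw [mul_smul, mul_smul]
          exact h2
      subst hij
      have h4 : D.lam b • D.tz j (!e) = D.tz j (!e) := by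
        rw [← D.ts_tz j e] at h2
        exact smul_left_cancel _ h2
      obtain ⟨c, hc⟩ := D.pinch h4
      have h5 := D.R_rel hc
      rw [te_not, inv_inv] at h5
      have h6 : D.te j e * (D.io b * (D.te j (!e) * g')) = D.io c * g' := by
        rw [← h5, te_not]; group
      rw [h6]
      exact D.rd_io c hg'

/-- the group generated -/
def GG : Subgroup (Gam Y W) := Subgroup.closure (Set.range D.io ∪ Set.range D.tt)

theorem io_mem (a : A) : D.io a ∈ D.GG := Subgroup.subset_closure (Or.inl ⟨a, rfl⟩)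

theorem te_mem (i : I) (e : Bool) : D.te i e ∈ D.GG := by
  cases e
  · exact Subgroup.inv_mem _ (Subgroup.subset_closure (Or.inr ⟨i, rfl⟩))
  · exact Subgroup.subset_closure (Or.inr ⟨i, rfl⟩)

theorem rd_mem {g : Gam Y W} (h : g ∈ D.GG) : D.Rd g := by
  refine Subgroup.closure_induction_left (p := fun g _ => D.Rd g) ?_ ?_ ?_ h
  · have := Rd.base (D := D) 1
    rwa [map_one] at this
  · rintro x (⟨a, rfl⟩ | ⟨i, rfl⟩) y _ hy
    · exact D.rd_io a hy
    · exact D.rd_te i true hy
  · rintro x (⟨a, rfl⟩ | ⟨i, rfl⟩) y _ hy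
    · rw [← map_inv]; exact D.rd_io _ hy
    · exact D.rd_te i false hy

theorem fusion_step {a : A} {i : I} {e : Bool} {g : Gam Y W}
    (hr : FreeGroup.toWord (D.te i e * g).left = (D.tz i e, e) :: FreeGroup.toWord (actF Y W (D.ts i e) g.left)) {x z : A}
    (h : (D.io a * (D.te i e * g)) * D.io x * (D.io a * (D.te i e * g))⁻¹ = D.io z) :
    ∃ b, D.R i e (a⁻¹ * z * a) b ∧ g * D.io x * g⁻¹ = D.io b := by
  have h1 : D.io (a⁻¹ * z * a) * (D.te i e * g) = (D.te i e * g) * D.io x := by
    rw [map_mul, map_mul, map_inv, ← h]; group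
  have h2 := congrArg SemidirectProduct.left h1
  rw [left_io_mul, left_mul_io] at h2
  have h3 := congrArg FreeGroup.toWord h2
  rw [toWord_actF, hr] at h3
  simp only [List.map_cons, List.cons.injEq, Prod.mk.injEq] at h3
  obtain ⟨b, hb⟩ := D.pinch h3.1.1
  refine ⟨b, hb, ?_⟩
  rw [← D.R_rel hb]
  have h4 : D.io (a⁻¹ * z * a) = (D.te i e * g) * D.io x * (D.te i e * g)⁻¹ := by rw [← h1]; group
  rw [h4]; group

theorem left_one_mem {g : Gam Y W} (h : D.Rd g) (hg : g.left = 1) : ∃ a, g = D.io a := by
  cases h with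
  | base a => exact ⟨a, rfl⟩
  | step a i e g' hg' hr =>
    exfalso
    rw [left_io_mul] at hg
    have h1 : FreeGroup.toWord (actF Y W (D.lam a) (D.te i e * g').left) = [] := by rw [hg, FreeGroup.toWord_one]
    rw [toWord_actF, hr] at h1
    exact List.cons_ne_nil _ _ h1

end HNData

end CfsgLib.Fus21
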