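import Cfsg.Agent.LibFus21In1

set_option autoImplicit false

/-! Words in free groups. -/

namespace CfsgLib.Fus21

theorem shrink {Y : Type*} [DecidableEq Y] {x : FreeGroup Y} {l l' : Y × Bool} {u v : List (Y × Bool)} (hll : l'.2 = l.2)
    (h1 : FreeGroup.toWord x = l :: u) (h2 : FreeGroup.toWord x⁻¹ = l' :: v) :
    FreeGroup.norm ((FreeGroup.mk [l])⁻¹ * (x * FreeGroup.mk [l'])) < FreeGroup.norm x := by
  rw [FreeGroup.toWord_inv, h1] at h2
  rcases List.eq_nil_or_concat u with rfl | ⟨u', q, rfl⟩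
  · exfalso
    have h3 : [(l.1, !l.2)] = l' :: v := h2
    rw [List.cons.injEq] at h3
    rw [← h3.1] at hll
    exact Bool.not_ne_self _ hll
  · have hx : x = FreeGroup.mk [l] * FreeGroup.mk u' * FreeGroup.mk [q] := by
      rw [← FreeGroup.mk_toWord (x := x), h1, FreeGroup.mul_mk, FreeGroup.mul_mk]
      simp
    have h3 : FreeGroup.invRev (l :: (u' ++ [q])) = (q.1, !q.2) :: FreeGroup.invRev (l :: u') := by
      simp [FreeGroup.invRev]
    have hl' : l' = (q.1, !q.2) := by
      rw [List.concat_eq_append, h3, List.cons.injEq] at h2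
      exact h2.1.symm
    have hq : FreeGroup.mk [q] * FreeGroup.mk [l'] = 1 := by
      have h5 : FreeGroup.mk [l'] = (FreeGroup.mk [q])⁻¹ := by
        rw [hl', FreeGroup.inv_mk]
        rfl
      rw [h5, mul_inv_cancel]
    have h4 : (FreeGroup.mk [l])⁻¹ * (x * FreeGroup.mk [l']) = FreeGroup.mk u' := by
      rw [hx, mul_assoc, mul_assoc, hq, mul_one, inv_mul_cancel_left]
    rw [h4]
    have h5 := FreeGroup.norm_mk_le (L₁ := u')
    have h6 : FreeGroup.norm x = u'.length + 2 := by
      unfold FreeGroup.norm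
      rw [h1]; simp
    omega

theorem norm_inv_mul {Y : Type*} [DecidableEq Y] {a b : FreeGroup Y} {x z : Y × Bool} {u v : List (Y × Bool)}
    (ha : FreeGroup.toWord a = x :: u) (hb : FreeGroup.toWord b = z :: v) (hxz : x ≠ z) :
    FreeGroup.norm (a⁻¹ * b) = FreeGroup.norm a + FreeGroup.norm b := by
  have h1 : FreeGroup.toWord (a⁻¹ * b) = FreeGroup.invRev (x :: u) ++ (z :: v) := by
    rw [FreeGroup.toWord_mul, FreeGroup.toWord_inv, ha, hb]
    apply FreeGroup.IsReduced.reduce_eq
    have h2 : FreeGroup.IsReduced (FreeGroup.invRev (x :: u)) := by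
      rw [← ha, ← FreeGroup.toWord_inv]; exact FreeGroup.isReduced_toWord
    have h3 : FreeGroup.IsReduced (z :: v) := by rw [← hb]; exact FreeGroup.isReduced_toWord
    unfold FreeGroup.IsReduced at h2 h3 ⊢
    rw [List.isChain_append]
    refine ⟨h2, h3, fun p hp q hq hpq => ?_⟩
    have hp' : p = (x.1, !x.2) := by
      simp [FreeGroup.invRev] at hp
      exact hp.symm
    have hq' : q = z := by
      simp at hq
      exact hq.symm
    rw [hp', hq'] at hpq ⊢
    have h4 : x.2 ≠ z.2 := fun h => hxz (Prod.ext hpq h)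
    show (!x.2) = z.2
    cases hx2 : x.2 <;> cases hz2 : z.2 <;> simp_all
  unfold FreeGroup.norm
  rw [h1, List.length_append, FreeGroup.invRev_length, ha, hb]

end CfsgLib.Fus21
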