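import Cfsg.Agent.LibFus21In2
import Cfsg.Agent.LibFus21In3

set_option autoImplicit false

/-! Finite subgroups are conjugate into the base group. -/

namespace CfsgLib.Fus21

namespace HNData

variable {A Y W I : Type*} [Group A] [Group W] [MulAction W Y] (D : HNData A Y W I) [DecidableEq Y]

omit [DecidableEq Y] in
theorem inv_left' (g : Gam Y W) : (g⁻¹).left = actF Y W g.right⁻¹ g.left⁻¹ := SemidirectProduct.inv_left _

theorem norm_left_inv_mul (c g : Gam Y W) : FreeGroup.norm (c⁻¹ * g).left = FreeGroup.norm (c.left⁻¹ * g.left) := by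
  have h : (c⁻¹ * g).left = actF Y W c.right⁻¹ (c.left⁻¹ * g.left) := by
    rw [SemidirectProduct.mul_left, SemidirectProduct.inv_left, SemidirectProduct.inv_right, ← map_mul]
  rw [h, norm_actF]

theorem finite_conj {H : Type*} [Group H] [Fintype H] : ∀ (N : ℕ) (ρ : H →* Gam Y W), (∀ h, ρ h ∈ D.GG) →
    ∑ h, FreeGroup.norm (ρ h).left = N → ∃ g ∈ D.GG, ∀ h, ∃ a, g * ρ h * g⁻¹ = D.io a := by
  intro N
  induction N using Nat.strong_induction_on with
  | _ N ih =>
  intro ρ hρ hN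
  by_cases hall : ∀ h, (ρ h).left = 1
  · refine ⟨1, D.GG.one_mem, fun h => ?_⟩
    obtain ⟨a, ha⟩ := D.left_one_mem (D.rd_mem (hρ h)) (hall h)
    exact ⟨a, by rw [ha]; group⟩
  push Not at hall
  obtain ⟨h₁, hh₁⟩ := hall
  obtain ⟨h₀, hh₀⟩ := Finite.exists_max (fun h => FreeGroup.norm (ρ h).left)
  have hpos : 0 < FreeGroup.norm (ρ h₀).left :=
    lt_of_lt_of_le (Nat.pos_of_ne_zero fun h => hh₁ (FreeGroup.norm_eq_zero.1 h)) (hh₀ h₁)
  have hna : FreeGroup.norm (ρ h₀⁻¹).left = FreeGroup.norm (ρ h₀).left := by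
    rw [map_inv, inv_left', norm_actF, FreeGroup.norm_inv_eq]
  obtain ⟨c, hc, l, hcl, u₀, hu₀⟩ : ∃ c ∈ D.GG, ∃ l : Y × Bool, c.left = FreeGroup.mk [l] ∧
      ∃ u, FreeGroup.toWord (ρ h₀⁻¹).left = l :: u := by
    have h1 := D.rd_mem (hρ h₀⁻¹)
    generalize ρ h₀⁻¹ = g at h1 hna ⊢
    cases h1 with
    | base a =>
      exfalso
      rw [left_io, FreeGroup.norm_one] at hna
      omega
    | step a i e g' hg' hr =>
      refine ⟨D.io a * D.te i e, D.GG.mul_mem (D.io_mem a) (D.te_mem i e), (D.lam a • D.tz i e, e), ?_, ?_⟩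
      · rw [left_io_mul, te_left, actF_mk]; rfl
      · rw [left_io_mul, toWord_actF, hr]
        exact ⟨_, rfl⟩
  have hA : ∀ h, (ρ h).left ≠ 1 → ∃ u, FreeGroup.toWord (ρ h).left = l :: u := by
    intro h hh
    cases hw : FreeGroup.toWord (ρ h).left with
    | nil => exact absurd (FreeGroup.toWord_eq_nil_iff.1 hw) hh
    | cons z v =>
      by_cases hz : z = l
      · exact ⟨v, by rw [hz]⟩
      exfalso
      have h1 := norm_inv_mul hu₀ hw (fun h => hz h.symm)
      have h2 : FreeGroup.norm (ρ (h₀ * h)).left = FreeGroup.norm ((ρ h₀⁻¹).left⁻¹ * (ρ h).left) := by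
        rw [← norm_left_inv_mul, ← map_inv, ← map_mul, inv_inv]
      have h3 : FreeGroup.norm (ρ (h₀ * h)).left ≤ FreeGroup.norm (ρ h₀).left := hh₀ (h₀ * h)
      have h4 : 0 < FreeGroup.norm (ρ h).left := Nat.pos_of_ne_zero fun h => hh (FreeGroup.norm_eq_zero.1 h)
      omega
  have hconj : ∀ h, FreeGroup.norm (c⁻¹ * ρ h * c).left =
      FreeGroup.norm ((FreeGroup.mk [l])⁻¹ * ((ρ h).left * FreeGroup.mk [((ρ h).right • l.1, l.2)])) := by
    intro h
    rw [mul_assoc, norm_left_inv_mul, hcl, SemidirectProduct.mul_left, hcl]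
    rfl
  have hlt : ∀ h, (ρ h).left ≠ 1 → FreeGroup.norm (c⁻¹ * ρ h * c).left < FreeGroup.norm (ρ h).left := by
    intro h hh
    rw [hconj]
    obtain ⟨u, hu⟩ := hA h hh
    have h2 : (ρ h).left⁻¹ = actF Y W (ρ h).right (ρ h⁻¹).left := by
      rw [map_inv ρ, inv_left', ← MulAut.mul_apply, ← map_mul, mul_inv_cancel, map_one]; rfl
    have h1 : (ρ h⁻¹).left ≠ 1 := by
      intro h3
      rw [h3, map_one, inv_eq_one] at h2
      exact hh h2
    obtain ⟨v, hv⟩ := hA h⁻¹ h1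
    refine shrink (u := u) (v := v.map fun a => ((ρ h).right • a.1, a.2)) rfl hu ?_
    rw [h2, toWord_actF, hv]; rfl
  have hle : ∀ h, FreeGroup.norm (c⁻¹ * ρ h * c).left ≤ FreeGroup.norm (ρ h).left := by
    intro h
    by_cases hh : (ρ h).left = 1
    · rw [hconj, hh, one_mul]
      have h1 : (ρ (h * h₀⁻¹)).left = actF Y W (ρ h).right (ρ h₀⁻¹).left := by
        rw [map_mul, SemidirectProduct.mul_left, hh, one_mul]
      have h2 : FreeGroup.toWord (ρ (h * h₀⁻¹)).left =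
          ((ρ h).right • l.1, l.2) :: u₀.map fun a => ((ρ h).right • a.1, a.2) := by
        rw [h1, toWord_actF, hu₀]; rfl
      have h3 : (ρ (h * h₀⁻¹)).left ≠ 1 := by
        intro h4
        rw [h4, FreeGroup.toWord_one] at h2
        exact List.cons_ne_nil _ _ h2.symm
      obtain ⟨u, hu⟩ := hA _ h3
      rw [h2, List.cons.injEq] at hu
      rw [hu.1, inv_mul_cancel]
    · exact (hlt h hh).le
  have hsum : ∑ h, FreeGroup.norm (c⁻¹ * ρ h * c).left < N := by
    rw [← hN]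
    exact Finset.sum_lt_sum (fun h _ => hle h) ⟨h₁, Finset.mem_univ _, hlt h₁ hh₁⟩
  obtain ⟨ρ', hρ'⟩ : ∃ ρ' : H →* Gam Y W, ∀ h, ρ' h = c⁻¹ * ρ h * c :=
    ⟨(MulAut.conj c⁻¹).toMonoidHom.comp ρ, fun h => by
      show c⁻¹ * ρ h * c⁻¹⁻¹ = _
      rw [inv_inv]⟩
  obtain ⟨g, hg, hgx⟩ := ih _ hsum ρ' (fun h => by
    rw [hρ']; exact D.GG.mul_mem (D.GG.mul_mem (D.GG.inv_mem hc) (hρ h)) hc) (by simp only [hρ'])
  refine ⟨g * c⁻¹, D.GG.mul_mem hg (D.GG.inv_mem hc), fun h => ?_⟩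
  obtain ⟨a, ha⟩ := hgx h
  refine ⟨a, ?_⟩
  rw [← ha, hρ']; group

/-- the free normal subgroup -/
def NN : Subgroup D.GG := ((SemidirectProduct.rightHom : Gam Y W →* W).comp D.GG.subtype).ker

omit [DecidableEq Y] in
theorem NN_free : IsFreeGroup D.NN := by
  let f : D.NN →* FreeGroup Y :=
    { toFun := fun g => ((g : D.GG) : Gam Y W).left
      map_one' := rfl
      map_mul' := fun g h => by
        have h1 : ((g : D.GG) : Gam Y W).right = 1 := g.2
        show (((g : D.GG) : Gam Y W) * ((h : D.GG) : Gam Y W)).left = _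
        rw [SemidirectProduct.mul_left, h1, map_one]
        rfl }
  have hf : Function.Injective f := by
    intro g h hgh
    have h1 : ((g : D.GG) : Gam Y W).right = 1 := g.2
    have h2 : ((h : D.GG) : Gam Y W).right = 1 := h.2
    apply Subtype.ext
    apply Subtype.ext
    exact SemidirectProduct.ext hgh (h1.trans h2.symm)
  exact IsFreeGroup.ofMulEquiv (MonoidHom.ofInjective hf).symm

omit [DecidableEq Y] in
theorem NN_index : D.NN.index ∣ Nat.card W := by
  unfold NN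
  rw [Subgroup.index_ker]
  exact Subgroup.card_subgroup_dvd_card _

end HNData

end CfsgLib.Fus21
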