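import Cfsg.Agent.LibFus21In4

set_option autoImplicit false

/-! Every fusion system on a finite group is realized by an infinite group. -/

namespace CfsgLib.Fus21

open Cfsg Cfsg.FusionSystem

universe u

/-- the regular representation -/
def regR (A : Type*) [Group A] : A →* Equiv.Perm A where
  toFun a := Equiv.mulRight a⁻¹
  map_one' := by
    ext t
    simp
  map_mul' a b := by
    ext t
    show t * (a * b)⁻¹ = t * b⁻¹ * a⁻¹
    rw [mul_inv_rev, mul_assoc]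

theorem regR_apply {A : Type*} [Group A] (a t : A) : regR A a t = t * a⁻¹ := rfl

theorem regR_inj (A : Type*) [Group A] : Function.Injective (regR A) := by
  intro a b h
  have h1 := congrArg (fun σ : Equiv.Perm A => σ 1) h
  simp only [regR_apply, one_mul] at h1
  exact inv_injective h1

theorem exists_sg {A : Type*} [Group A] [Finite A] {P : Subgroup A} (f : P →* A) (hf : Function.Injective f) :
    ∃ σ : Equiv.Perm A, ∀ x : P, σ * regR A x * σ⁻¹ = regR A (f x) := by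
  obtain ⟨σ, hσ⟩ := exists_perm (MonoidHom.ofInjective hf)
  refine ⟨σ, fun x => ?_⟩
  rw [mul_inv_eq_iff_eq_mul]
  ext t
  show σ (t * (x : A)⁻¹) = σ t * (f x)⁻¹
  exact hσ x t

variable {Ω : Type u} [Group Ω] {S : Subgroup Ω}

/-- the maps of the system -/
abbrev Idx (F : FusionSystem S) := Σ P : Subgroup Ω, {φ : P →* Ω // φ ∈ F.Hom P}

/-- the map as a map into `S` -/
def idxF (F : FusionSystem S) (i : Idx F) : i.1.subgroupOf S →* S where
  toFun x := ⟨i.2.1 ⟨x, x.2⟩, mem_S i.2.2 _⟩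
  map_one' := Subtype.ext (map_one i.2.1)
  map_mul' x y := Subtype.ext (map_mul i.2.1 ⟨x, x.2⟩ ⟨y, y.2⟩)

theorem idxF_inj (F : FusionSystem S) (i : Idx F) : Function.Injective (idxF F i) := by
  intro x y h
  have h1 := inj i.2.2 (congrArg Subtype.val h)
  exact Subtype.ext (Subtype.ext (congrArg (fun z : i.1 => (z : Ω)) h1))

/-- stabilizers -/
def idxK (F : FusionSystem S) (i : Idx F) : Subgroup (Equiv.Perm S) := (idxF F i).range.map (regR S)

/-- letters -/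
abbrev idxY (F : FusionSystem S) := Σ i : Idx F, Equiv.Perm S ⧸ idxK F i

/-- the data -/
noncomputable def idxD [Finite S] (F : FusionSystem S) : HNData S (idxY F) (Equiv.Perm S) (Idx F) where
  lam := regR S
  lam_inj := regR_inj S
  y i := ⟨i, ((1 : Equiv.Perm S) : Equiv.Perm S ⧸ idxK F i)⟩
  sg i := Classical.choose (exists_sg (idxF F i) (idxF_inj F i))
  Pd i := i.1.subgroupOf S
  f i := idxF F i
  rel i x := Classical.choose_spec (exists_sg (idxF F i) (idxF_inj F i)) x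
  stab i w := by
    have h : (w • (⟨i, ((1 : Equiv.Perm S) : Equiv.Perm S ⧸ idxK F i)⟩ : idxY F)) =
      ⟨i, ((w * 1 : Equiv.Perm S) : Equiv.Perm S ⧸ idxK F i)⟩ := rfl
    rw [h, mul_one]
    constructor
    · intro h1
      have h2 := eq_of_heq (Sigma.mk.inj h1).2
      have h3 : w ∈ idxK F i := by
        have h4 := QuotientGroup.eq.1 h2.symm
        rwa [inv_one, one_mul] at h4
      obtain ⟨_, ⟨x, rfl⟩, hx⟩ := h3
      exact ⟨x, hx.symm⟩
    · rintro ⟨x, rfl⟩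
      congr 1
      apply QuotientGroup.eq.2
      rw [mul_one]
      exact Subgroup.inv_mem _ ⟨_, ⟨x, rfl⟩, rfl⟩
  disj i j w h := congrArg Sigma.fst h

theorem infinite_fusion [Finite S] (F : FusionSystem S) [DecidableEq (idxY F)] {g : HNData.Gam (idxY F) (Equiv.Perm S)}
    (hg : (idxD F).Rd g) : ∀ (P : Subgroup Ω) (hP : P ≤ S) (φ : P →* Ω) (hφ : ∀ x : P, φ x ∈ S),
      (∀ x : P, (idxD F).io ⟨φ x, hφ x⟩ = g * (idxD F).io ⟨x, hP x.2⟩ * g⁻¹) → φ ∈ F.Hom P := by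
  induction hg with
  | base a =>
    intro P hP φ hφ h
    refine mem_congr (F.conj_mem hP a.2) fun x => ?_
    have h1 := h x
    rw [← map_inv, ← map_mul, ← map_mul] at h1
    exact congrArg Subtype.val ((idxD F).io_inj h1)
  | step a i e g hg hr ih =>
    intro P hP φ hφ h
    obtain ⟨P', φ', hφ'⟩ := i
    have key : ∀ x : P, ∃ b, (idxD F).R ⟨P', φ', hφ'⟩ e (a⁻¹ * ⟨φ x, hφ x⟩ * a) b ∧
        g * (idxD F).io ⟨x, hP x.2⟩ * g⁻¹ = (idxD F).io b := fun x =>
      (idxD F).fusion_step hr (h x).symm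
    obtain ⟨ρ, hρ, hρx⟩ := F.inv_mem hφ'
    -- conjugate of `φ`
    obtain ⟨θ, hθ⟩ : ∃ θ : P →* Ω, ∀ x, θ x = (a : Ω)⁻¹ * φ x * a := ⟨(MulAut.conj (a : Ω)⁻¹).toMonoidHom.comp φ, fun x => by
      show (a : Ω)⁻¹ * φ x * (a : Ω)⁻¹⁻¹ = _
      rw [inv_inv]⟩
    cases e with
    | true =>
      have hθr : ∀ x, θ x ∈ φ'.range := by
        intro x
        obtain ⟨b, ⟨z, hz, -⟩, -⟩ := key x
        refine ⟨⟨z, z.2⟩, ?_⟩
        rw [hθ]
        exact (congrArg Subtype.val hz).symm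
      have hψ0 : ∀ x (b : S), (idxD F).R ⟨P', φ', hφ'⟩ true (a⁻¹ * ⟨φ x, hφ x⟩ * a) b →
          (ρ.comp (θ.codRestrict φ'.range hθr)) x = b := by
        rintro x b ⟨z, hz, rfl⟩
        have h1 : θ x = φ' ⟨z, z.2⟩ := by rw [hθ]; exact congrArg Subtype.val hz
        refine Eq.trans ?_ (hρx ⟨z, z.2⟩)
        show ρ ⟨θ x, _⟩ = _
        congr 1
        exact Subtype.ext h1
      have hψS : ∀ x, (ρ.comp (θ.codRestrict φ'.range hθr)) x ∈ S := fun x => mem_S hρ _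
      have hψ := ih P hP (ρ.comp (θ.codRestrict φ'.range hθr)) hψS (fun x => by
        obtain ⟨b, hb, hbx⟩ := key x
        rw [hbx]
        congr 1
        exact Subtype.ext (hψ0 x b hb))
      have hmem : ∀ x, (ρ.comp (θ.codRestrict φ'.range hθr)) x ∈ P' ∧
          ∀ h, φ' ⟨(ρ.comp (θ.codRestrict φ'.range hθr)) x, h⟩ = (a : Ω)⁻¹ * φ x * a := by
        intro x
        obtain ⟨b, hb, -⟩ := key x
        have h1 := hψ0 x b hb
        obtain ⟨z, hz, rfl⟩ := hb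
        refine ⟨by rw [h1]; exact z.2, fun h => ?_⟩
        have h2 : (⟨(ρ.comp (θ.codRestrict φ'.range hθr)) x, h⟩ : P') = ⟨z, z.2⟩ := Subtype.ext h1
        rw [h2]
        exact (congrArg Subtype.val hz).symm
      have h2 := comp_mem' hψ hφ' (χ := (φ'.comp ((ρ.comp (θ.codRestrict φ'.range hθr)).codRestrict P' fun x => (hmem x).1)))
        fun x => ⟨(hmem x).1, rfl⟩
      refine comp_mem' h2 (F.conj_mem (le_rfl : S ≤ S) a.2) fun x => ⟨mem_S h2 x, ?_⟩
      have h3 : (φ'.comp ((ρ.comp (θ.codRestrict φ'.range hθr)).codRestrict P' fun x => (hmem x).1)) x = (a : Ω)⁻¹ * φ x * a :=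
        (hmem x).2 _
      show φ x = (a : Ω) * (φ'.comp _) x * (a : Ω)⁻¹
      rw [h3]; group
    | false =>
      have hθr : ∀ x, θ x ∈ P' := by
        intro x
        obtain ⟨b, ⟨z, hz, -⟩, -⟩ := key x
        have h1 : θ x = z := by rw [hθ]; exact congrArg Subtype.val hz
        rw [h1]; exact z.2
      have hψ0 : ∀ x (b : S), (idxD F).R ⟨P', φ', hφ'⟩ false (a⁻¹ * ⟨φ x, hφ x⟩ * a) b →
          (φ'.comp (θ.codRestrict P' hθr)) x = b := by
        rintro x b ⟨z, hz, rfl⟩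
        have h1 : θ x = z := by rw [hθ]; exact congrArg Subtype.val hz
        show φ' ⟨θ x, _⟩ = φ' ⟨z, _⟩
        congr 1
        exact Subtype.ext h1
      have hψS : ∀ x, (φ'.comp (θ.codRestrict P' hθr)) x ∈ S := fun x => mem_S hφ' _
      have hψ := ih P hP (φ'.comp (θ.codRestrict P' hθr)) hψS (fun x => by
        obtain ⟨b, hb, hbx⟩ := key x
        rw [hbx]
        congr 1
        exact Subtype.ext (hψ0 x b hb))
      have hmem : ∀ x, (φ'.comp (θ.codRestrict P' hθr)) x ∈ φ'.range := fun x => ⟨_, rfl⟩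
      have h2 := F.comp_mem hψ hρ hmem
      refine comp_mem' h2 (F.conj_mem (le_rfl : S ≤ S) a.2) fun x => ⟨mem_S h2 x, ?_⟩
      have h3 : (ρ.comp ((φ'.comp (θ.codRestrict P' hθr)).codRestrict φ'.range hmem)) x = (a : Ω)⁻¹ * φ x * a := by
        rw [← hθ]
        exact hρx ⟨θ x, hθr x⟩
      show φ x = (a : Ω) * (ρ.comp _) x * (a : Ω)⁻¹
      rw [h3]; group

theorem infinite_realization [Finite S] (F : FusionSystem S) : ∃ (G : Type u) (_ : Group G) (ι : S →* G), F.IsRealizedBy ι ∧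
    (∀ H : Subgroup G, Finite H → ∃ g : G, ∀ h ∈ H, g * h * g⁻¹ ∈ ι.range) ∧
    ∃ N : Subgroup G, N.Normal ∧ IsFreeGroup N ∧ N.index ∣ (Nat.card S).factorial := by
  classical
  have hι : ∀ s : S, (idxD F).io s ∈ (idxD F).GG := (idxD F).io_mem
  refine ⟨(idxD F).GG, inferInstance, (idxD F).io.codRestrict _ hι, ⟨fun s t h => (idxD F).io_inj (congrArg Subtype.val h),
    fun P hP φ hφ => ⟨fun h => ?_, ?_⟩⟩, fun H hH => ?_, (idxD F).NN, ?_, (idxD F).NN_free, ?_⟩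
  · refine ⟨⟨(idxD F).tt ⟨P, φ, h⟩, (idxD F).te_mem ⟨P, φ, h⟩ true⟩, fun x => Subtype.ext ?_⟩
    show (idxD F).io ⟨φ x, hφ x⟩ = (idxD F).tt ⟨P, φ, h⟩ * (idxD F).io ⟨x, hP x.2⟩ * ((idxD F).tt ⟨P, φ, h⟩)⁻¹
    have h1 := (idxD F).tt_rel ⟨P, φ, h⟩ ⟨⟨x, hP x.2⟩, x.2⟩
    have h2 : (idxD F).tt ⟨P, φ, h⟩ * (idxD F).io ⟨x, hP x.2⟩ = (idxD F).io ⟨φ x, hφ x⟩ * (idxD F).tt ⟨P, φ, h⟩ := h1
    rw [h2]; group
  · rintro ⟨g, hg⟩
    exact infinite_fusion F ((idxD F).rd_mem g.2) P hP φ hφ fun x => congrArg Subtype.val (hg x)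
  · haveI := Fintype.ofFinite H
    obtain ⟨g, hg, hgx⟩ := (idxD F).finite_conj _ ((idxD F).GG.subtype.comp H.subtype) (fun h => (h : (idxD F).GG).2) rfl
    refine ⟨⟨g, hg⟩, fun h hh => ?_⟩
    obtain ⟨a, ha⟩ := hgx ⟨h, hh⟩
    exact ⟨a, Subtype.ext ha.symm⟩
  · unfold HNData.NN
    infer_instance
  · have h1 := (idxD F).NN_index
    haveI := Fintype.ofFinite S
    rwa [Nat.card_eq_fintype_card, Fintype.card_perm, ← Nat.card_eq_fintype_card] at h1

end CfsgLib.Fus21
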