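import Cfsg.Agent.LibFus21Mor3

set_option autoImplicit false

/-! Direct products of fusion systems. -/

namespace CfsgLib.Fus21

open Cfsg Cfsg.FusionSystem

variable {Ω₁ Ω₂ : Type*} [Group Ω₁] [Group Ω₂] {S₁ : Subgroup Ω₁} {S₂ : Subgroup Ω₂}

/-- first projection -/
abbrev pr1 (P : Subgroup (Ω₁ × Ω₂)) : Subgroup Ω₁ := P.map (MonoidHom.fst Ω₁ Ω₂)
/-- second projection -/
abbrev pr2 (P : Subgroup (Ω₁ × Ω₂)) : Subgroup Ω₂ := P.map (MonoidHom.snd Ω₁ Ω₂)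

theorem pr1_mem {P : Subgroup (Ω₁ × Ω₂)} {x : Ω₁ × Ω₂} (hx : x ∈ P) : x.1 ∈ pr1 P := ⟨x, hx, rfl⟩
theorem pr2_mem {P : Subgroup (Ω₁ × Ω₂)} {x : Ω₁ × Ω₂} (hx : x ∈ P) : x.2 ∈ pr2 P := ⟨x, hx, rfl⟩

theorem pr1_le {P : Subgroup (Ω₁ × Ω₂)} (hP : P ≤ S₁.prod S₂) : pr1 P ≤ S₁ := by
  rintro _ ⟨x, hx, rfl⟩; exact (Subgroup.mem_prod.1 (hP hx)).1
theorem pr2_le {P : Subgroup (Ω₁ × Ω₂)} (hP : P ≤ S₁.prod S₂) : pr2 P ≤ S₂ := by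
  rintro _ ⟨x, hx, rfl⟩; exact (Subgroup.mem_prod.1 (hP hx)).2

/-- the restriction of `(φ₁, φ₂)` to `P` -/
def prodHom {P : Subgroup (Ω₁ × Ω₂)} {P₁ : Subgroup Ω₁} {P₂ : Subgroup Ω₂} (h₁ : pr1 P ≤ P₁) (h₂ : pr2 P ≤ P₂)
    (φ₁ : P₁ →* Ω₁) (φ₂ : P₂ →* Ω₂) : P →* Ω₁ × Ω₂ where
  toFun x := (φ₁ ⟨(x : Ω₁ × Ω₂).1, h₁ (pr1_mem x.2)⟩, φ₂ ⟨(x : Ω₁ × Ω₂).2, h₂ (pr2_mem x.2)⟩)
  map_one' := by
    ext
    · exact map_one φ₁
    · exact map_one φ₂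
  map_mul' := by
    intro x y
    ext
    · exact map_mul φ₁ ⟨(x : Ω₁ × Ω₂).1, h₁ (pr1_mem x.2)⟩ ⟨(y : Ω₁ × Ω₂).1, h₁ (pr1_mem y.2)⟩
    · exact map_mul φ₂ ⟨(x : Ω₁ × Ω₂).2, h₂ (pr2_mem x.2)⟩ ⟨(y : Ω₁ × Ω₂).2, h₂ (pr2_mem y.2)⟩

theorem prodHom_apply {P : Subgroup (Ω₁ × Ω₂)} {P₁ : Subgroup Ω₁} {P₂ : Subgroup Ω₂} (h₁ : pr1 P ≤ P₁) (h₂ : pr2 P ≤ P₂)
    (φ₁ : P₁ →* Ω₁) (φ₂ : P₂ →* Ω₂) (x : P) : prodHom h₁ h₂ φ₁ φ₂ x =
      (φ₁ ⟨(x : Ω₁ × Ω₂).1, h₁ (pr1_mem x.2)⟩, φ₂ ⟨(x : Ω₁ × Ω₂).2, h₂ (pr2_mem x.2)⟩) := rfl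

/-- the maps of the product system -/
def PHom (F₁ : FusionSystem S₁) (F₂ : FusionSystem S₂) (P : Subgroup (Ω₁ × Ω₂)) : Set (P →* Ω₁ × Ω₂) :=
  {φ | P ≤ S₁.prod S₂ ∧
      ∃ φ₁ ∈ F₁.Hom (pr1 P), ∃ φ₂ ∈ F₂.Hom (pr2 P),
        ∀ x : P, φ x = (φ₁ ⟨(x : Ω₁ × Ω₂).1, pr1_mem x.2⟩, φ₂ ⟨(x : Ω₁ × Ω₂).2, pr2_mem x.2⟩)}

/-- membership from maps on larger groups -/
theorem mem_PHom {F₁ : FusionSystem S₁} {F₂ : FusionSystem S₂} {P : Subgroup (Ω₁ × Ω₂)} {φ : P →* Ω₁ × Ω₂}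
    {P₁ : Subgroup Ω₁} {P₂ : Subgroup Ω₂} {φ₁ : P₁ →* Ω₁} {φ₂ : P₂ →* Ω₂} (h₁ : φ₁ ∈ F₁.Hom P₁) (h₂ : φ₂ ∈ F₂.Hom P₂)
    (hP₁ : pr1 P ≤ P₁) (hP₂ : pr2 P ≤ P₂)
    (h : ∀ x : P, φ x = (φ₁ ⟨(x : Ω₁ × Ω₂).1, hP₁ (pr1_mem x.2)⟩, φ₂ ⟨(x : Ω₁ × Ω₂).2, hP₂ (pr2_mem x.2)⟩)) :
    φ ∈ PHom F₁ F₂ P := by
  refine ⟨fun x hx => Subgroup.mem_prod.2 ⟨le_S h₁ (hP₁ (pr1_mem hx)), le_S h₂ (hP₂ (pr2_mem hx))⟩,
    _, restrict_mem h₁ hP₁, _, restrict_mem h₂ hP₂, fun x => h x⟩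

/-- The direct product. -/
def prodSys (F₁ : FusionSystem S₁) (F₂ : FusionSystem S₂) : FusionSystem (S₁.prod S₂) where
  Hom P := PHom F₁ F₂ P
  le_of_mem := by
    rintro P φ ⟨hP, φ₁, h₁, φ₂, h₂, h⟩
    refine ⟨hP, fun x => ?_⟩
    rw [h]
    exact Subgroup.mem_prod.2 ⟨mem_S h₁ _, mem_S h₂ _⟩
  injective_of_mem := by
    rintro P φ ⟨hP, φ₁, h₁, φ₂, h₂, h⟩ x y hxy
    rw [h, h] at hxy
    have e1 := inj h₁ (congrArg Prod.fst hxy)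
    have e2 := inj h₂ (congrArg Prod.snd hxy)
    exact Subtype.ext (Prod.ext (congrArg Subtype.val e1) (congrArg Subtype.val e2))
  conj_mem := by
    intro P g hP hg
    obtain ⟨hg1, hg2⟩ := Subgroup.mem_prod.1 hg
    exact ⟨hP, _, F₁.conj_mem (pr1_le hP) hg1, _, F₂.conj_mem (pr2_le hP) hg2, fun x => rfl⟩
  comp_mem := by
    rintro P Q φ ψ ⟨hP, φ₁, h₁, φ₂, h₂, h⟩ ⟨hQ, ψ₁, k₁, ψ₂, k₂, k⟩ hm
    have m1 : ∀ x, φ₁ x ∈ pr1 Q := by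
      rintro ⟨_, x, hx, rfl⟩
      have := hm ⟨x, hx⟩
      rw [h] at this
      exact pr1_mem this
    have m2 : ∀ x, φ₂ x ∈ pr2 Q := by
      rintro ⟨_, x, hx, rfl⟩
      have := hm ⟨x, hx⟩
      rw [h] at this
      exact pr2_mem this
    refine ⟨hP, _, F₁.comp_mem h₁ k₁ m1, _, F₂.comp_mem h₂ k₂ m2, fun x => ?_⟩
    show ψ ⟨φ x, _⟩ = _
    rw [k]
    have e := h x
    ext
    · show ψ₁ _ = ψ₁ _
      congr 1
      exact Subtype.ext (congrArg Prod.fst e)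
    · show ψ₂ _ = ψ₂ _
      congr 1
      exact Subtype.ext (congrArg Prod.snd e)
  inv_mem := by
    rintro P φ ⟨hP, φ₁, h₁, φ₂, h₂, h⟩
    obtain ⟨ψ₁, k₁, e₁⟩ := F₁.inv_mem h₁
    obtain ⟨ψ₂, k₂, e₂⟩ := F₂.inv_mem h₂
    have r1 : pr1 φ.range ≤ φ₁.range := by
      rintro _ ⟨_, ⟨x, rfl⟩, rfl⟩
      rw [h]; exact ⟨_, rfl⟩
    have r2 : pr2 φ.range ≤ φ₂.range := by
      rintro _ ⟨_, ⟨x, rfl⟩, rfl⟩
      rw [h]; exact ⟨_, rfl⟩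
    refine ⟨prodHom r1 r2 ψ₁ ψ₂, mem_PHom k₁ k₂ r1 r2 fun x => rfl, fun x => ?_⟩
    rw [prodHom_apply]
    ext
    · refine Eq.trans ?_ (e₁ ⟨(x : Ω₁ × Ω₂).1, pr1_mem x.2⟩)
      show ψ₁ _ = ψ₁ _
      congr 1
      exact Subtype.ext (congrArg Prod.fst (h x))
    · refine Eq.trans ?_ (e₂ ⟨(x : Ω₁ × Ω₂).2, pr2_mem x.2⟩)
      show ψ₂ _ = ψ₂ _
      congr 1
      exact Subtype.ext (congrArg Prod.snd (h x))

theorem prodSys_is (F₁ : FusionSystem S₁) (F₂ : FusionSystem S₂) : IsProductSystem F₁ F₂ (prodSys F₁ F₂) := by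
  intro P φ
  constructor
  · rintro ⟨hP, φ₁, h₁, φ₂, h₂, h⟩
    exact ⟨hP, φ₁, h₁, φ₂, h₂, fun x _ _ => h x⟩
  · rintro ⟨hP, φ₁, h₁, φ₂, h₂, h⟩
    exact ⟨hP, φ₁, h₁, φ₂, h₂, fun x => h x _ _⟩

theorem prodSys_unique {F₁ : FusionSystem S₁} {F₂ : FusionSystem S₂} {E : FusionSystem (S₁.prod S₂)}
    (hE : IsProductSystem F₁ F₂ E) : E = prodSys F₁ F₂ :=
  fusionSystem_ext fun P => by
    ext φ
    rw [hE P φ, prodSys_is F₁ F₂ P φ]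

/-- if all the `p`-elements of `A` lie in the `p`-subgroup `H`, then `H` is Sylow -/
theorem not_dvd_of_pelements {G : Type*} [Group G] {p : ℕ} [Fact p.Prime] {H A : Subgroup G} [Finite A]
    (hHA : H ≤ A) (hHp : IsPGroup p H) (h : ∀ a ∈ A, (∃ k : ℕ, a ^ (p ^ k) = 1) → a ∈ H) : ¬ p ∣ H.relIndex A := by
  obtain ⟨L, hLA, hLp, hHL, hLi⟩ := exists_sylow_sub A hHp hHA
  have : L = H := by
    refine le_antisymm (fun x hx => h x (hLA hx) ?_) hHL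
    obtain ⟨k, hk⟩ := hLp ⟨x, hx⟩
    exact ⟨k, congrArg Subtype.val hk⟩
  rw [← this]; exact hLi

theorem pelement_S_inner {Ω : Type*} [Group Ω] {S : Subgroup Ω} [Finite S] {p : ℕ} [Fact p.Prime] (hS : IsPGroup p S)
    {F : FusionSystem S} (hF : F.IsSaturated p) {α : MulAut S} (hα : α ∈ F.autGroup S) (h : ∃ k : ℕ, α ^ (p ^ k) = 1) :
    α ∈ Inn S := by
  have h1 := (fullyAutomized_iff hS).1 (sat_fn hS hF (fullyNormalized_S F)).2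
  rw [autInducedBy_self] at h1
  obtain ⟨k, hk⟩ := h
  have hf := finite_autGroup F (le_refl S)
  have hZp : IsPGroup p (Subgroup.zpowers α) := by
    intro a
    obtain ⟨j, hj⟩ := Subgroup.mem_zpowers_iff.1 a.2
    refine ⟨k, Subtype.ext ?_⟩
    show (a : MulAut S) ^ (p ^ k) = 1
    rw [← hj, ← zpow_natCast, ← zpow_mul, mul_comm, zpow_mul, zpow_natCast, hk, one_zpow]
  have hInnp : IsPGroup p (Inn S) := by
    rw [← autInducedBy_self]; exact isPGroup_autInducedBy hS S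
  obtain ⟨g, hg, hle⟩ := exists_conj_le hInnp h1.2 ((Subgroup.zpowers_le).2 hα) hZp
  have h2 : g * α * g⁻¹ ∈ Inn S := hle ⟨α, Subgroup.mem_zpowers α, rfl⟩
  have h3 := (inferInstance : (Inn S).Normal).conj_mem _ h2 g⁻¹
  have h4 : g⁻¹ * (g * α * g⁻¹) * g⁻¹⁻¹ = α := by group
  rwa [h4] at h3

theorem conj_mul_mem_normalizer {G : Type*} [Group G] {P : Subgroup G} {g : G}
    (h : g ∈ Subgroup.normalizer (P : Set G)) {x : G} : x ∈ P ↔ g * x * g⁻¹ ∈ P := Subgroup.mem_normalizer_iff.1 h x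

theorem pr1_normalizer {P : Subgroup (Ω₁ × Ω₂)} {g : Ω₁ × Ω₂} (hg : g ∈ Subgroup.normalizer (P : Set (Ω₁ × Ω₂))) :
    g.1 ∈ Subgroup.normalizer (pr1 P : Set Ω₁) := by
  have key : ∀ g : Ω₁ × Ω₂, g ∈ Subgroup.normalizer (P : Set (Ω₁ × Ω₂)) → ∀ x ∈ pr1 P, g.1 * x * g.1⁻¹ ∈ pr1 P := by
    rintro g hg _ ⟨x, hx, rfl⟩
    exact ⟨g * x * g⁻¹, (Subgroup.mem_normalizer_iff.1 hg x).1 hx, rfl⟩
  rw [Subgroup.mem_normalizer_iff]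
  intro x
  refine ⟨key g hg x, fun h => ?_⟩
  have h1 := key g⁻¹ (Subgroup.inv_mem _ hg) _ h
  have e : g⁻¹.1 * (g.1 * x * g.1⁻¹) * g⁻¹.1⁻¹ = x := by rw [Prod.fst_inv]; group
  rwa [e] at h1

theorem pr2_normalizer {P : Subgroup (Ω₁ × Ω₂)} {g : Ω₁ × Ω₂} (hg : g ∈ Subgroup.normalizer (P : Set (Ω₁ × Ω₂))) :
    g.2 ∈ Subgroup.normalizer (pr2 P : Set Ω₂) := by
  have key : ∀ g : Ω₁ × Ω₂, g ∈ Subgroup.normalizer (P : Set (Ω₁ × Ω₂)) → ∀ x ∈ pr2 P, g.2 * x * g.2⁻¹ ∈ pr2 P := by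
    rintro g hg _ ⟨x, hx, rfl⟩
    exact ⟨g * x * g⁻¹, (Subgroup.mem_normalizer_iff.1 hg x).1 hx, rfl⟩
  rw [Subgroup.mem_normalizer_iff]
  intro x
  refine ⟨key g hg x, fun h => ?_⟩
  have h1 := key g⁻¹ (Subgroup.inv_mem _ hg) _ h
  have e : g⁻¹.2 * (g.2 * x * g.2⁻¹) * g⁻¹.2⁻¹ = x := by rw [Prod.snd_inv]; group
  rwa [e] at h1

theorem finite_prodS [Finite S₁] [Finite S₂] : Finite (S₁.prod S₂) :=
  Finite.of_injective (fun x : S₁.prod S₂ => ((⟨(x : Ω₁ × Ω₂).1, (Subgroup.mem_prod.1 x.2).1⟩ : S₁),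
    (⟨(x : Ω₁ × Ω₂).2, (Subgroup.mem_prod.1 x.2).2⟩ : S₂))) (by
      intro x y h
      apply Subtype.ext
      exact Prod.ext (congrArg (fun z : S₁ × S₂ => (z.1 : Ω₁)) h) (congrArg (fun z : S₁ × S₂ => (z.2 : Ω₂)) h))

theorem isPGroup_prodS {p : ℕ} (h₁ : IsPGroup p S₁) (h₂ : IsPGroup p S₂) : IsPGroup p (S₁.prod S₂) := by
  intro x
  obtain ⟨a, ha⟩ := h₁ ⟨(x : Ω₁ × Ω₂).1, (Subgroup.mem_prod.1 x.2).1⟩
  obtain ⟨b, hb⟩ := h₂ ⟨(x : Ω₁ × Ω₂).2, (Subgroup.mem_prod.1 x.2).2⟩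
  have ha' : (x : Ω₁ × Ω₂).1 ^ p ^ a = 1 := congrArg Subtype.val ha
  have hb' : (x : Ω₁ × Ω₂).2 ^ p ^ b = 1 := congrArg Subtype.val hb
  refine ⟨a + b, Subtype.ext ?_⟩
  show (x : Ω₁ × Ω₂) ^ p ^ (a + b) = 1
  ext
  · rw [Prod.pow_fst, pow_add, pow_mul, ha', one_pow]; rfl
  · rw [Prod.pow_snd, add_comm, pow_add, pow_mul, hb', one_pow]; rfl

/-- the projections of a fully normalized subgroup are fully centralized -/
theorem fc_pr1 [Finite S₁] [Finite S₂] {p : ℕ} [Fact p.Prime] (hS₁ : IsPGroup p S₁)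
    {F₁ : FusionSystem S₁} {F₂ : FusionSystem S₂} (hF₁ : F₁.IsSaturated p) {P : Subgroup (Ω₁ × Ω₂)}
    (hP : (prodSys F₁ F₂).IsFullyNormalized P) : F₁.IsFullyCentralized (pr1 P) := by
  have hPS := hP.1
  have hfin : Finite (S₁.prod S₂) := finite_prodS
  have hP₁ := pr1_le hPS
  have hP₂ := pr2_le hPS
  obtain ⟨R, hPR, hR⟩ := exists_fullyNormalized F₁ hP₁
  obtain ⟨φ, hφ, e, he, hφe, hφN⟩ := exists_map_normalizer hS₁ (sat_fn hS₁ hF₁ hR).2 (sat_fn_receptive hS₁ hF₁ hR) hPR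
  have hRc := (sat_fn hS₁ hF₁ hR).1
  -- the map `(φ, id)` on `N_S(P)`
  have hN1 : pr1 (normalizerIn (S₁.prod S₂) P) ≤ normalizerIn S₁ (pr1 P) := by
    rintro _ ⟨x, hx, rfl⟩
    obtain ⟨h1, h2⟩ := Subgroup.mem_inf.1 hx
    exact Subgroup.mem_inf.2 ⟨(Subgroup.mem_prod.1 h1).1, pr1_normalizer h2⟩
  have hN2 : pr2 (normalizerIn (S₁.prod S₂) P) ≤ S₂ := by
    rintro _ ⟨x, hx, rfl⟩
    exact (Subgroup.mem_prod.1 (Subgroup.mem_inf.1 hx).1).2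
  have hPN : P ≤ normalizerIn (S₁.prod S₂) P := le_normalizerIn hPS
  set Φ := prodHom hN1 hN2 φ S₂.subtype with hΦ
  have hΦF : Φ ∈ (prodSys F₁ F₂).Hom (normalizerIn (S₁.prod S₂) P) :=
    mem_PHom hφ (incl_mem F₂ le_rfl) hN1 hN2 fun x => rfl
  set P' := himg Φ P with hP'
  have hconj : (prodSys F₁ F₂).IsConj P P' := conj_himg hΦF hPN
  have hcard := hP.2 P' hconj
  -- the image of `N_S(P)` lies in `N_S(P')`
  have himgN : himg Φ (normalizerIn (S₁.prod S₂) P) ≤ normalizerIn (S₁.prod S₂) P' := by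
    intro y hy
    obtain ⟨x, hx, -, rfl⟩ := mem_himg.1 hy
    refine map_normalizer hΦF hPN (P := P') (fun z hz => mem_himg_of_mem hz) (fun z hz => ?_) hx hx
    obtain ⟨w, hw, hwP, hwz⟩ := mem_himg.1 hz
    exact ⟨w, hwP, hwz⟩
  have hfN : Finite (normalizerIn (S₁.prod S₂) P') := finite_of_le (normalizerIn_le _ _)
  have heq : himg Φ (normalizerIn (S₁.prod S₂) P) = normalizerIn (S₁.prod S₂) P' :=
    Subgroup.eq_of_le_of_card_ge himgN (by rw [card_himg (inj hΦF) le_rfl]; exact hcard)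
  -- `C_{S₁}(R) × 1` lies in `N_S(P')`
  have hC : ∀ c ∈ centralizerIn S₁ R, ∃ g ∈ centralizerIn S₁ (pr1 P), ∃ h, φ ⟨g, h⟩ = c := by
    intro c hc
    obtain ⟨hcS, hcR⟩ := mem_centralizerIn'.1 hc
    have hmem : ((c, 1) : Ω₁ × Ω₂) ∈ normalizerIn (S₁.prod S₂) P' := by
      refine Subgroup.mem_inf.2 ⟨Subgroup.mem_prod.2 ⟨hcS, S₂.one_mem⟩, ?_⟩
      refine Subgroup.centralizer_le_normalizer _ ?_
      rw [Subgroup.mem_centralizer_iff]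
      intro y hy
      obtain ⟨x, hx, hxP, rfl⟩ := mem_himg.1 hy
      have h1 : φ ⟨x.1, hN1 (pr1_mem hx)⟩ ∈ R := by
        rw [hφe ⟨x.1, pr1_mem hxP⟩]; exact (e _).2
      have h2 := hcR _ h1
      rw [mul_inv_eq_iff_eq_mul] at h2
      rw [hΦ, prodHom_apply]
      ext
      · exact h2.symm
      · show S₂.subtype _ * 1 = 1 * S₂.subtype _
        rw [mul_one, one_mul]
    rw [← heq] at hmem
    obtain ⟨g, hgN, -, hgc⟩ := mem_himg.1 hmem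
    rw [hΦ, prodHom_apply] at hgc
    have hg1 : φ ⟨g.1, hN1 (pr1_mem hgN)⟩ = c := congrArg Prod.fst hgc
    refine ⟨g.1, ?_, hN1 (pr1_mem hgN), hg1⟩
    rw [mem_centralizerIn']
    refine ⟨(Subgroup.mem_prod.1 (Subgroup.mem_inf.1 hgN).1).1, fun x hx => ?_⟩
    have hxN := le_normalizerIn hP₁ hx
    have h3 : φ (⟨g.1, hN1 (pr1_mem hgN)⟩ * ⟨x, hxN⟩ * ⟨g.1, hN1 (pr1_mem hgN)⟩⁻¹) = φ ⟨x, hxN⟩ := by
      rw [map_mul, map_mul, map_inv, hg1]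
      apply hcR
      rw [hφe ⟨x, hx⟩]; exact (e _).2
    exact congrArg Subtype.val (inj hφ h3)
  have hcle : Nat.card (centralizerIn S₁ R) ≤ Nat.card (centralizerIn S₁ (pr1 P)) := by
    have hle : centralizerIn S₁ R ≤ himg φ (centralizerIn S₁ (pr1 P)) := by
      intro c hc
      obtain ⟨g, hg, h, hgc⟩ := hC c hc
      exact mem_himg.2 ⟨g, h, hg, hgc⟩
    rw [← card_himg (inj hφ) (centralizerIn_le_normalizerIn S₁ (pr1 P))]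
    have hf : Finite (himg φ (centralizerIn S₁ (pr1 P))) := finite_of_le (himg_le_S hφ _)
    exact Subgroup.card_le_of_le hle
  exact ⟨hP₁, fun Q hQ => (hRc.2 Q (conj_trans (conj_symm hPR) hQ)).trans hcle⟩

theorem fc_pr2 [Finite S₁] [Finite S₂] {p : ℕ} [Fact p.Prime] (hS₂ : IsPGroup p S₂)
    {F₁ : FusionSystem S₁} {F₂ : FusionSystem S₂} (hF₂ : F₂.IsSaturated p) {P : Subgroup (Ω₁ × Ω₂)}
    (hP : (prodSys F₁ F₂).IsFullyNormalized P) : F₂.IsFullyCentralized (pr2 P) := by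
  have hPS := hP.1
  have hfin : Finite (S₁.prod S₂) := finite_prodS
  have hP₁ := pr1_le hPS
  have hP₂ := pr2_le hPS
  obtain ⟨R, hPR, hR⟩ := exists_fullyNormalized F₂ hP₂
  obtain ⟨φ, hφ, e, he, hφe, hφN⟩ := exists_map_normalizer hS₂ (sat_fn hS₂ hF₂ hR).2 (sat_fn_receptive hS₂ hF₂ hR) hPR
  have hRc := (sat_fn hS₂ hF₂ hR).1
  have hN2 : pr2 (normalizerIn (S₁.prod S₂) P) ≤ normalizerIn S₂ (pr2 P) := by
    rintro _ ⟨x, hx, rfl⟩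
    obtain ⟨h1, h2⟩ := Subgroup.mem_inf.1 hx
    exact Subgroup.mem_inf.2 ⟨(Subgroup.mem_prod.1 h1).2, pr2_normalizer h2⟩
  have hN1 : pr1 (normalizerIn (S₁.prod S₂) P) ≤ S₁ := by
    rintro _ ⟨x, hx, rfl⟩
    exact (Subgroup.mem_prod.1 (Subgroup.mem_inf.1 hx).1).1
  have hPN : P ≤ normalizerIn (S₁.prod S₂) P := le_normalizerIn hPS
  set Φ := prodHom hN1 hN2 S₁.subtype φ with hΦ
  have hΦF : Φ ∈ (prodSys F₁ F₂).Hom (normalizerIn (S₁.prod S₂) P) :=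
    mem_PHom (incl_mem F₁ le_rfl) hφ hN1 hN2 fun x => rfl
  set P' := himg Φ P with hP'
  have hconj : (prodSys F₁ F₂).IsConj P P' := conj_himg hΦF hPN
  have hcard := hP.2 P' hconj
  have himgN : himg Φ (normalizerIn (S₁.prod S₂) P) ≤ normalizerIn (S₁.prod S₂) P' := by
    intro y hy
    obtain ⟨x, hx, -, rfl⟩ := mem_himg.1 hy
    refine map_normalizer hΦF hPN (P := P') (fun z hz => mem_himg_of_mem hz) (fun z hz => ?_) hx hx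
    obtain ⟨w, hw, hwP, hwz⟩ := mem_himg.1 hz
    exact ⟨w, hwP, hwz⟩
  have hfN : Finite (normalizerIn (S₁.prod S₂) P') := finite_of_le (normalizerIn_le _ _)
  have heq : himg Φ (normalizerIn (S₁.prod S₂) P) = normalizerIn (S₁.prod S₂) P' :=
    Subgroup.eq_of_le_of_card_ge himgN (by rw [card_himg (inj hΦF) le_rfl]; exact hcard)
  have hC : ∀ c ∈ centralizerIn S₂ R, ∃ g ∈ centralizerIn S₂ (pr2 P), ∃ h, φ ⟨g, h⟩ = c := by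
    intro c hc
    obtain ⟨hcS, hcR⟩ := mem_centralizerIn'.1 hc
    have hmem : ((1, c) : Ω₁ × Ω₂) ∈ normalizerIn (S₁.prod S₂) P' := by
      refine Subgroup.mem_inf.2 ⟨Subgroup.mem_prod.2 ⟨S₁.one_mem, hcS⟩, ?_⟩
      refine Subgroup.centralizer_le_normalizer _ ?_
      rw [Subgroup.mem_centralizer_iff]
      intro y hy
      obtain ⟨x, hx, hxP, rfl⟩ := mem_himg.1 hy
      have h1 : φ ⟨x.2, hN2 (pr2_mem hx)⟩ ∈ R := by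
        rw [hφe ⟨x.2, pr2_mem hxP⟩]; exact (e _).2
      have h2 := hcR _ h1
      rw [mul_inv_eq_iff_eq_mul] at h2
      rw [hΦ, prodHom_apply]
      ext
      · show S₁.subtype _ * 1 = 1 * S₁.subtype _
        rw [mul_one, one_mul]
      · exact h2.symm
    rw [← heq] at hmem
    obtain ⟨g, hgN, -, hgc⟩ := mem_himg.1 hmem
    rw [hΦ, prodHom_apply] at hgc
    have hg1 : φ ⟨g.2, hN2 (pr2_mem hgN)⟩ = c := congrArg Prod.snd hgc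
    refine ⟨g.2, ?_, hN2 (pr2_mem hgN), hg1⟩
    rw [mem_centralizerIn']
    refine ⟨(Subgroup.mem_prod.1 (Subgroup.mem_inf.1 hgN).1).2, fun x hx => ?_⟩
    have hxN := le_normalizerIn hP₂ hx
    have h3 : φ (⟨g.2, hN2 (pr2_mem hgN)⟩ * ⟨x, hxN⟩ * ⟨g.2, hN2 (pr2_mem hgN)⟩⁻¹) = φ ⟨x, hxN⟩ := by
      rw [map_mul, map_mul, map_inv, hg1]
      apply hcR
      rw [hφe ⟨x, hx⟩]; exact (e _).2
    exact congrArg Subtype.val (inj hφ h3)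
  have hcle : Nat.card (centralizerIn S₂ R) ≤ Nat.card (centralizerIn S₂ (pr2 P)) := by
    have hle : centralizerIn S₂ R ≤ himg φ (centralizerIn S₂ (pr2 P)) := by
      intro c hc
      obtain ⟨g, hg, h, hgc⟩ := hC c hc
      exact mem_himg.2 ⟨g, h, hg, hgc⟩
    rw [← card_himg (inj hφ) (centralizerIn_le_normalizerIn S₂ (pr2 P))]
    have hf : Finite (himg φ (centralizerIn S₂ (pr2 P))) := finite_of_le (himg_le_S hφ _)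
    exact Subgroup.card_le_of_le hle
  exact ⟨hP₂, fun Q hQ => (hRc.2 Q (conj_trans (conj_symm hPR) hQ)).trans hcle⟩

theorem prodSys_saturated [Finite S₁] [Finite S₂] {p : ℕ} [Fact p.Prime] (hS₁ : IsPGroup p S₁) (hS₂ : IsPGroup p S₂)
    {F₁ : FusionSystem S₁} {F₂ : FusionSystem S₂} (hF₁ : F₁.IsSaturated p) (hF₂ : F₂.IsSaturated p) :
    (prodSys F₁ F₂).IsSaturated p := by
  have hfin : Finite (S₁.prod S₂) := finite_prodS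
  have hS : IsPGroup p (S₁.prod S₂) := isPGroup_prodS hS₁ hS₂
  rw [saturated_iff_weak hS]
  have hp1 : pr1 (S₁.prod S₂) = S₁ := by
    refine le_antisymm (pr1_le le_rfl) fun x hx => ?_
    exact ⟨(x, 1), Subgroup.mem_prod.2 ⟨hx, S₂.one_mem⟩, rfl⟩
  have hp2 : pr2 (S₁.prod S₂) = S₂ := by
    refine le_antisymm (pr2_le le_rfl) fun x hx => ?_
    exact ⟨(1, x), Subgroup.mem_prod.2 ⟨S₁.one_mem, hx⟩, rfl⟩
  constructor
  · refine (fullyAutomized_iff hS).2 ⟨le_rfl, ?_⟩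
    rw [autInducedBy_self]
    have hfA := finite_autGroup (prodSys F₁ F₂) (le_refl (S₁.prod S₂))
    have hInnp : IsPGroup p (Inn (S₁.prod S₂)) := by
      rw [← autInducedBy_self]; exact isPGroup_autInducedBy hS _
    refine not_dvd_of_pelements (Inn_le_autGroup _ le_rfl) hInnp fun α hα hk => ?_
    rw [mem_autGroup le_rfl] at hα
    obtain ⟨-, φ₁, h₁, φ₂, h₂, h⟩ := hα
    -- transport to automorphisms of `S₁`, `S₂`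
    have g1 : φ₁.comp (Subgroup.inclusion hp1.ge) ∈ F₁.Hom S₁ := restrict_mem h₁ hp1.ge
    have g2 : φ₂.comp (Subgroup.inclusion hp2.ge) ∈ F₂.Hom S₂ := restrict_mem h₂ hp2.ge
    obtain ⟨α₁, hα₁, e₁⟩ := exists_aut_of_hom g1 (mem_S g1)
    obtain ⟨α₂, hα₂, e₂⟩ := exists_aut_of_hom g2 (mem_S g2)
    have hval : ∀ x : S₁.prod S₂, ((α x : S₁.prod S₂) : Ω₁ × Ω₂) =
        (((α₁ ⟨(x : Ω₁ × Ω₂).1, (Subgroup.mem_prod.1 x.2).1⟩ : S₁) : Ω₁),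
          ((α₂ ⟨(x : Ω₁ × Ω₂).2, (Subgroup.mem_prod.1 x.2).2⟩ : S₂) : Ω₂)) := by
      intro x
      rw [e₁, e₂]
      exact h x
    have hpow : ∀ (n : ℕ) (x : S₁.prod S₂), (((α ^ n) x : S₁.prod S₂) : Ω₁ × Ω₂) =
        ((((α₁ ^ n) ⟨(x : Ω₁ × Ω₂).1, (Subgroup.mem_prod.1 x.2).1⟩ : S₁) : Ω₁),
          (((α₂ ^ n) ⟨(x : Ω₁ × Ω₂).2, (Subgroup.mem_prod.1 x.2).2⟩ : S₂) : Ω₂)) := by
      intro n
      induction n with
      | zero => intro x; rfl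
      | succ n ih =>
        intro x
        rw [pow_succ, pow_succ, pow_succ]
        show (((α ^ n) (α x) : S₁.prod S₂) : Ω₁ × Ω₂) = _
        rw [ih (α x)]
        have h3 := hval x
        ext
        · show (((α₁ ^ n) _ : S₁) : Ω₁) = (((α₁ ^ n) (α₁ _) : S₁) : Ω₁)
          congr 2
          exact Subtype.ext (congrArg Prod.fst h3)
        · show (((α₂ ^ n) _ : S₂) : Ω₂) = (((α₂ ^ n) (α₂ _) : S₂) : Ω₂)
          congr 2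
          exact Subtype.ext (congrArg Prod.snd h3)
    obtain ⟨k, hk⟩ := hk
    have hk1 : α₁ ^ p ^ k = 1 := by
      ext x
      have h3 := hpow (p ^ k) ⟨((x : Ω₁), 1), Subgroup.mem_prod.2 ⟨x.2, S₂.one_mem⟩⟩
      rw [hk] at h3
      exact (congrArg Prod.fst h3).symm
    have hk2 : α₂ ^ p ^ k = 1 := by
      ext x
      have h3 := hpow (p ^ k) ⟨(1, (x : Ω₂)), Subgroup.mem_prod.2 ⟨S₁.one_mem, x.2⟩⟩
      rw [hk] at h3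
      exact (congrArg Prod.snd h3).symm
    obtain ⟨a, ha, hax⟩ := mem_Inn.1 (pelement_S_inner hS₁ hF₁ hα₁ ⟨k, hk1⟩)
    obtain ⟨b, hb, hbx⟩ := mem_Inn.1 (pelement_S_inner hS₂ hF₂ hα₂ ⟨k, hk2⟩)
    refine mem_Inn.2 ⟨(a, b), Subgroup.mem_prod.2 ⟨ha, hb⟩, fun x => ?_⟩
    rw [hval, hax, hbx]; rfl
  · intro P hP
    have hPS := hP.1
    have hfc1 := fc_pr1 hS₁ hF₁ hP
    have hfc2 := fc_pr2 hS₂ hF₂ hP
    have hrec1 := sat_fc_receptive hS₁ hF₁ hfc1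
    have hrec2 := sat_fc_receptive hS₂ hF₂ hfc2
    refine isReceptive_iff.2 ⟨hPS, fun R e he => ?_⟩
    obtain ⟨hRS, φ₁, h₁, φ₂, h₂, h⟩ : (P.subtype.comp e.toMonoidHom) ∈ PHom F₁ F₂ R := he
    -- `φᵢ` has image `pr_i P`
    have hr1 : φ₁.range = pr1 P := by
      ext y
      constructor
      · rintro ⟨⟨_, x, hx, rfl⟩, rfl⟩
        have h3 := h ⟨x, hx⟩
        have : φ₁ ⟨x.1, pr1_mem hx⟩ = ((e ⟨x, hx⟩ : P) : Ω₁ × Ω₂).1 := (congrArg Prod.fst h3).symm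
        show φ₁ ⟨x.1, pr1_mem hx⟩ ∈ _
        rw [this]; exact pr1_mem (e _).2
      · rintro ⟨y, hy, rfl⟩
        have h3 := h (e.symm ⟨y, hy⟩)
        have h4 : (P.subtype.comp e.toMonoidHom) (e.symm ⟨y, hy⟩) = y := by
          show ((e (e.symm ⟨y, hy⟩) : P) : Ω₁ × Ω₂) = y
          simp
        rw [h4] at h3
        exact ⟨_, (congrArg Prod.fst h3).symm⟩
    have hr2 : φ₂.range = pr2 P := by
      ext y
      constructor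
      · rintro ⟨⟨_, x, hx, rfl⟩, rfl⟩
        have h3 := h ⟨x, hx⟩
        have : φ₂ ⟨x.2, pr2_mem hx⟩ = ((e ⟨x, hx⟩ : P) : Ω₁ × Ω₂).2 := (congrArg Prod.snd h3).symm
        show φ₂ ⟨x.2, pr2_mem hx⟩ ∈ _
        rw [this]; exact pr2_mem (e _).2
      · rintro ⟨y, hy, rfl⟩
        have h3 := h (e.symm ⟨y, hy⟩)
        have h4 : (P.subtype.comp e.toMonoidHom) (e.symm ⟨y, hy⟩) = y := by
          show ((e (e.symm ⟨y, hy⟩) : P) : Ω₁ × Ω₂) = y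
          simp
        rw [h4] at h3
        exact ⟨_, (congrArg Prod.snd h3).symm⟩
    obtain ⟨ψ₁, k₁, e₁⟩ := hrec1.2 _ φ₁ h₁ hr1
    obtain ⟨ψ₂, k₂, e₂⟩ := hrec2.2 _ φ₂ h₂ hr2
    have hle1 : pr1 (extender (S₁.prod S₂) R (P.subtype.comp e.toMonoidHom)) ≤ extender S₁ (pr1 R) φ₁ := by
      rintro _ ⟨g, hg, rfl⟩
      obtain ⟨hgS, hgN, k, hk, hkx⟩ := mem_extender.1 hg
      refine mem_extender.2 ⟨(Subgroup.mem_prod.1 hgS).1, pr1_normalizer hgN, k.1, (Subgroup.mem_prod.1 hk).1, ?_⟩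
      rintro ⟨_, x, hx, rfl⟩ hx'
      have hgx : g * x * g⁻¹ ∈ R := (Subgroup.mem_normalizer_iff.1 hgN x).1 hx
      have h3 := hkx ⟨x, hx⟩ hgx
      rw [h, h] at h3
      exact congrArg Prod.fst h3
    have hle2 : pr2 (extender (S₁.prod S₂) R (P.subtype.comp e.toMonoidHom)) ≤ extender S₂ (pr2 R) φ₂ := by
      rintro _ ⟨g, hg, rfl⟩
      obtain ⟨hgS, hgN, k, hk, hkx⟩ := mem_extender.1 hg
      refine mem_extender.2 ⟨(Subgroup.mem_prod.1 hgS).2, pr2_normalizer hgN, k.2, (Subgroup.mem_prod.1 hk).2, ?_⟩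
      rintro ⟨_, x, hx, rfl⟩ hx'
      have hgx : g * x * g⁻¹ ∈ R := (Subgroup.mem_normalizer_iff.1 hgN x).1 hx
      have h3 := hkx ⟨x, hx⟩ hgx
      rw [h, h] at h3
      exact congrArg Prod.snd h3
    refine ⟨prodHom hle1 hle2 ψ₁ ψ₂, mem_PHom k₁ k₂ hle1 hle2 fun x => rfl, fun x hx hN => ?_⟩
    rw [prodHom_apply]
    have h3 := h ⟨x, hx⟩
    show _ = (P.subtype.comp e.toMonoidHom) ⟨x, hx⟩
    rw [h3]
    ext
    · exact e₁ x.1 (pr1_mem hx) (hle1 (pr1_mem hN))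
    · exact e₂ x.2 (pr2_mem hx) (hle2 (pr2_mem hN))

end CfsgLib.Fus21
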