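import Cfsg.Agent.EqBase
import Cfsg.Agent.LibQuot19
import Cfsg.Agent.LibCon19
import Cfsg.Agent.LibClifford
/-!
# Characters nonzero on exactly two classes (helper19)
-/
set_option autoImplicit false
set_option linter.all false
open Cfsg CfsgLib.CharBasic
open scoped ComplexConjugate
namespace CfsgLib.Gag19

universe u v
variable {G : Type u} [Group G]

/-- two-class support in terms of a representative -/
theorem exists_rep [Finite G] (χ : IrrCharacter G)
    (hχ : Nat.card {C : ConjClasses G // ∃ g ∈ C.carrier, (χ : G → ℂ) g ≠ 0} = 2) :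
    ∃ g : G, g ≠ 1 ∧ (χ : G → ℂ) g ≠ 0 ∧ ∀ x, (χ : G → ℂ) x ≠ 0 → x = 1 ∨ IsConj g x := by
  haveI : Fintype G := Fintype.ofFinite G
  have h1 : (χ : G → ℂ) 1 ≠ 0 := irr_one_ne_zero χ.2
  let c1 : {C : ConjClasses G // ∃ g ∈ C.carrier, (χ : G → ℂ) g ≠ 0} := ⟨ConjClasses.mk 1, 1, ConjClasses.mem_carrier_mk, h1⟩
  obtain ⟨a, b, hab, huniv⟩ := Nat.card_eq_two_iff.1 hχ
  have hcl : ∀ c : {C : ConjClasses G // ∃ g ∈ C.carrier, (χ : G → ℂ) g ≠ 0}, c = a ∨ c = b := by
    intro c
    have : c ∈ ({a, b} : Set _) := by rw [huniv]; trivial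
    simpa using this
  have : ∃ c2, c2 ≠ c1 ∧ ∀ c, c = c1 ∨ c = c2 := by
    rcases hcl c1 with h | h
    · refine ⟨b, by rw [h]; exact hab.symm, fun c => ?_⟩
      rw [h]; exact hcl c
    · refine ⟨a, by rw [h]; exact hab, fun c => ?_⟩
      rw [h]; exact (hcl c).symm
  obtain ⟨⟨C, g, hgC, hg⟩, hne, hall⟩ := this
  have hC : C = ConjClasses.mk g := (ConjClasses.mem_carrier_iff_mk_eq.1 hgC).symm
  refine ⟨g, ?_, hg, ?_⟩
  · rintro rfl
    apply hne
    apply Subtype.ext
    exact hC
  · intro x hx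
    rcases hall ⟨ConjClasses.mk x, x, ConjClasses.mem_carrier_mk, hx⟩ with h | h
    · left
      have := congrArg Subtype.val h
      have h2 : IsConj x 1 := ConjClasses.mk_eq_mk_iff_isConj.1 this
      exact isConj_one_right.1 h2.symm
    · right
      have := congrArg Subtype.val h
      change ConjClasses.mk x = C at this
      rw [hC] at this
      exact (ConjClasses.mk_eq_mk_iff_isConj.1 this).symm

/-- sum of a class function supported on two classes -/
theorem sum_two [Fintype G] {g : G} (hg : g ≠ 1) {f : G → ℂ} (hf : IsClassFunction G f)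
    (hs : ∀ x, f x ≠ 0 → x = 1 ∨ IsConj g x) :
    ∑ x, f x = f 1 + ((Subgroup.centralizer ({g} : Set G)).index : ℂ) * f g := by
  classical
  rw [← CfsgLib.CharInt.sum_cInd_mul hf g]
  rw [← Finset.add_sum_erase _ _ (Finset.mem_univ (1 : G))]
  congr 1
  rw [← Finset.add_sum_erase (s := Finset.univ) (f := fun x => CfsgLib.CharInt.cInd g x * f x) (a := (1 : G)) (Finset.mem_univ _)]
  rw [CfsgLib.CharInt.cInd_not (x := 1), zero_mul, zero_add]
  · refine Finset.sum_congr rfl fun x hx => ?_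
    have hx1 := (Finset.mem_erase.1 hx).1
    by_cases hfx : f x = 0
    · rw [hfx, mul_zero]
    · rcases hs x hfx with h | h
      · exact absurd h hx1
      · rw [CfsgLib.CharInt.cInd_of h, one_mul]
  · intro h
    exact hg (isConj_one_left.1 h)

structure Data (G : Type u) [Group G] (χ : G → ℂ) (N : Subgroup G) (k m : ℕ) : Prop where
  normal : N.Normal
  mem : ∀ x, x ∈ N ↔ χ x ≠ 0
  kpos : 0 < k
  mpos : 0 < m
  cardN : Nat.card N = k + 1
  one : χ 1 = m * k
  val : ∀ x ∈ N, x ≠ 1 → χ x = -m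
  conjN : ∀ x ∈ N, ∀ y ∈ N, x ≠ 1 → y ≠ 1 → ∃ g : G, g * x * g⁻¹ = y
  other : ∀ ψ : IrrCharacter G, (ψ : G → ℂ) ≠ χ → ∀ n ∈ N, (ψ : G → ℂ) n = (ψ : G → ℂ) 1
  cardG : Nat.card G = m ^ 2 * k * (k + 1)
  cent : ∀ x ∈ N, x ≠ 1 → Nat.card (Subgroup.centralizer ({x} : Set G)) = m ^ 2 * (k + 1)

theorem exists_data [Finite G] (hG : 2 < Nat.card G) (χ : IrrCharacter G)
    (hχ : Nat.card {C : ConjClasses G // ∃ g ∈ C.carrier, (χ : G → ℂ) g ≠ 0} = 2) :
    ∃ (N : Subgroup G) (k m : ℕ), Data G χ N k m := by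
  classical
  haveI : Fintype G := Fintype.ofFinite G
  obtain ⟨g, hg1, hg, hall⟩ := exists_rep χ hχ
  set k := (Subgroup.centralizer ({g} : Set G)).index with hk
  have hkpos : 0 < k := Nat.pos_of_ne_zero Subgroup.index_ne_zero_of_finite
  have hGc : (Nat.card G : ℂ) ≠ 0 := by exact_mod_cast Nat.card_pos.ne'
  have hkc : (k : ℂ) ≠ 0 := by exact_mod_cast hkpos.ne'
  have hcl := irr_classFun χ.2
  obtain ⟨d, hd, hd1⟩ := irr_one_nat χ.2
  -- χ is not principal
  have hχ1 : (χ : G → ℂ) ≠ fun _ => 1 := by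
    intro h
    have h2 := sum_two hg1 (irr_classFun (isIrrCharacter_one (G := G))) (fun x _ => hall x (by rw [h]; exact one_ne_zero))
    simp only [Finset.sum_const, Finset.card_univ, nsmul_eq_mul, mul_one] at h2
    rw [← Nat.card_eq_fintype_card, ← hk] at h2
    have h3 : Nat.card G = 1 + k := by exact_mod_cast h2
    have h4 : k ∣ Nat.card G := Subgroup.index_dvd_card _
    rw [h3] at h4
    have h5 : k ∣ 1 := (Nat.dvd_add_left (dvd_refl k)).1 h4
    have := Nat.dvd_one.1 h5
    omega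
  -- orthogonality with ψ
  have horth : ∀ ψ : IrrCharacter G, (ψ : G → ℂ) ≠ χ →
      (χ : G → ℂ) 1 * conj ((ψ : G → ℂ) 1) + k * ((χ : G → ℂ) g * conj ((ψ : G → ℂ) g)) = 0 := by
    intro ψ hne
    have h1 := irr_inner_ne χ.2 ψ.2 (fun h => hne h.symm)
    unfold classInner at h1
    have hcf : IsClassFunction G (fun x => (χ : G → ℂ) x * conj ((ψ : G → ℂ) x)) := by
      intro x y
      simp only
      rw [irr_classFun χ.2 x y, irr_classFun ψ.2 x y]
    have h2 := sum_two hg1 hcf (fun x hx => hall x (fun h => hx (by simp [h])))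
    rw [h2] at h1
    rcases mul_eq_zero.1 h1 with h | h
    · exact absurd (inv_eq_zero.1 h) hGc
    · exact h
  have hval : (k : ℂ) * (χ : G → ℂ) g = -(χ : G → ℂ) 1 := by
    have := horth ⟨fun _ => 1, isIrrCharacter_one⟩ (Ne.symm hχ1)
    simp only [map_one, mul_one] at this
    linear_combination this
  have hother : ∀ ψ : IrrCharacter G, (ψ : G → ℂ) ≠ χ → (ψ : G → ℂ) g = (ψ : G → ℂ) 1 := by
    intro ψ hne
    have h1 := horth ψ hne
    have h2 : (χ : G → ℂ) 1 * (conj ((ψ : G → ℂ) 1) - conj ((ψ : G → ℂ) g)) = 0 := by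
      linear_combination h1 - conj ((ψ : G → ℂ) g) * hval
    rcases mul_eq_zero.1 h2 with h | h
    · exact absurd h (irr_one_ne_zero χ.2)
    · have h3 : conj ((ψ : G → ℂ) 1 - (ψ : G → ℂ) g) = 0 := by rw [map_sub]; exact h
      rw [map_eq_zero] at h3
      exact (sub_eq_zero.1 h3).symm
  -- the subgroup N
  have hkers : ∀ ψ : IrrCharacter G, ∃ K : Subgroup G, K.Normal ∧ ∀ g, g ∈ K ↔ (ψ : G → ℂ) g = (ψ : G → ℂ) 1 :=
    fun ψ => exists_kernel (irr_isCharacter ψ.2)
  choose K hKn hK using hkers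
  let N : Subgroup G := ⨅ ψ : {ψ : IrrCharacter G // (ψ : G → ℂ) ≠ χ}, K ψ
  have hN : N.Normal := Subgroup.normal_iInf_normal fun ψ => hKn ψ
  have hmemN : ∀ x, x ∈ N ↔ ∀ ψ : IrrCharacter G, (ψ : G → ℂ) ≠ χ → (ψ : G → ℂ) x = (ψ : G → ℂ) 1 := by
    intro x
    simp only [N, Subgroup.mem_iInf]
    exact ⟨fun h ψ hψ => (hK ψ x).1 (h ⟨ψ, hψ⟩), fun h ψ => (hK ψ.1 x).2 (h ψ.1 ψ.2)⟩
  have hgN : g ∈ N := (hmemN g).2 fun ψ hψ => hother ψ hψ
  have hNne : ∀ x ∈ N, x ≠ 1 → (χ : G → ℂ) x ≠ 0 := by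
    intro x hx hx1 h0
    have h1 := column_orthogonality (G := G) 1 x
    rw [if_neg (fun h => hx1 (isConj_one_right.1 h))] at h1
    have h2 : ∀ ψ : IrrCharacter G, 0 ≤ ((ψ : G → ℂ) 1 * conj ((ψ : G → ℂ) x)).re := by
      intro ψ
      by_cases he : (ψ : G → ℂ) = χ
      · rw [he, h0]; simp
      · rw [(hmemN x).1 hx ψ he]
        obtain ⟨n, -, hn⟩ := irr_one_nat ψ.2
        rw [hn, Complex.conj_natCast, ← Nat.cast_mul, Complex.natCast_re]
        positivity
    have h3 : 0 < (∑ ψ : IrrCharacter G, (ψ : G → ℂ) 1 * conj ((ψ : G → ℂ) x)).re := by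
      rw [Complex.re_sum]
      apply Finset.sum_pos' (fun ψ _ => h2 ψ)
      refine ⟨⟨fun _ => 1, isIrrCharacter_one⟩, Finset.mem_univ _, ?_⟩
      simp
    rw [h1] at h3
    simp at h3
  have hmem : ∀ x, x ∈ N ↔ (χ : G → ℂ) x ≠ 0 := by
    intro x
    constructor
    · intro hx
      by_cases h : x = 1
      · rw [h]; exact irr_one_ne_zero χ.2
      · exact hNne x hx h
    · intro hx
      rcases hall x hx with h | h
      · rw [h]; exact N.one_mem
      · obtain ⟨c, hc⟩ := isConj_iff.1 h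
        rw [← hc]; exact hN.conj_mem g hgN c
  have hconj1 : ∀ x ∈ N, x ≠ 1 → IsConj g x := by
    intro x hx hx1
    rcases hall x ((hmem x).1 hx) with h | h
    · exact absurd h hx1
    · exact h
  -- degree divisible by k
  have hkd : k ∣ d := by
    apply CfsgLib.CharInt2.div_isIntegral hkpos.ne'
    have h1 : ((d : ℂ) / k) = -(χ : G → ℂ) g := by
      rw [← hd1]; field_simp; linear_combination hval
    rw [h1]
    exact (CfsgLib.CharInt.irr_isIntegral χ.2 g).neg
  obtain ⟨m, hm⟩ := hkd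
  have hmpos : 0 < m := Nat.pos_of_ne_zero (by rintro rfl; omega)
  have hvg : (χ : G → ℂ) g = -m := by
    have : (k : ℂ) * (χ : G → ℂ) g = k * (-m) := by
      rw [hval, hd1, hm]; push_cast; ring
    exact mul_left_cancel₀ hkc this
  have hvx : ∀ x ∈ N, x ≠ 1 → (χ : G → ℂ) x = -m := by
    intro x hx hx1
    rw [← hvg]
    exact (CfsgLib.CharInt.irr_isConj χ.2 (hconj1 x hx hx1)).symm
  have hcardN : Nat.card N = k + 1 := by
    have hf : IsClassFunction G (fun x => if x ∈ N then (1 : ℂ) else 0) := by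
      intro x y
      have : y * x * y⁻¹ ∈ N ↔ x ∈ N := by
        constructor
        · intro h
          have := hN.conj_mem _ h y⁻¹
          simpa [mul_assoc] using this
        · intro h; exact hN.conj_mem _ h y
      simp only [this]
    have h1 := sum_two hg1 hf (fun x hx => by
      have : x ∈ N := by by_contra h; simp [h] at hx
      by_cases hx1 : x = 1
      · exact Or.inl hx1
      · exact Or.inr (hconj1 x this hx1))
    rw [← hk, if_pos N.one_mem, if_pos hgN, Finset.sum_boole] at h1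
    have h2 : (Finset.univ.filter fun x : G => x ∈ N).card = Nat.card N := by
      rw [Nat.card_eq_fintype_card, Fintype.card_subtype]
    rw [h2] at h1
    have : (Nat.card N : ℂ) = ((k + 1 : ℕ) : ℂ) := by rw [h1]; push_cast; ring
    exact_mod_cast this
  have hcardG : Nat.card G = m ^ 2 * k * (k + 1) := by
    have h1 := irr_inner_self χ.2
    unfold classInner at h1
    have hcf : IsClassFunction G (fun x => (χ : G → ℂ) x * conj ((χ : G → ℂ) x)) := by
      intro x y
      simp only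
      rw [irr_classFun χ.2 x y]
    have h2 := sum_two hg1 hcf (fun x hx => hall x (fun h => hx (by simp [h])))
    rw [h2, hvg, hd1, hm, ← hk] at h1
    have h3 : (Nat.card G : ℂ) = ((m ^ 2 * k * (k + 1) : ℕ) : ℂ) := by
      simp only [map_neg, Complex.conj_natCast] at h1
      push_cast at h1 ⊢
      field_simp at h1
      linear_combination -h1
    exact_mod_cast h3
  refine ⟨N, k, m, hN, hmem, hkpos, hmpos, hcardN, by rw [hd1, hm]; push_cast; ring, hvx, ?_, ?_, hcardG, ?_⟩
  · intro x hx y hy hx1 hy1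
    exact isConj_iff.1 ((hconj1 x hx hx1).symm.trans (hconj1 y hy hy1))
  · intro ψ hψ n hn
    exact (hmemN n).1 hn ψ hψ
  · intro x hx hx1
    have h1 := hconj1 x hx hx1
    have h2 : (Subgroup.centralizer ({x} : Set G)).index = k := by
      rw [hk, ← CfsgLib.CharInt.card_conj, ← CfsgLib.CharInt.card_conj]
      congr 1
      ext y
      simp only [Finset.mem_filter, Finset.mem_univ, true_and]
      exact ⟨fun h => h1.trans h, fun h => h1.symm.trans h⟩
    have h3 := (Subgroup.centralizer ({x} : Set G)).card_mul_index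
    rw [h2, hcardG] at h3
    have h4 : Nat.card (Subgroup.centralizer ({x} : Set G)) * k = (m ^ 2 * (k + 1)) * k := by rw [h3]; ring
    exact Nat.eq_of_mul_eq_mul_right hkpos h4

section More
variable [Finite G] {χ : G → ℂ} {N : Subgroup G} {k m : ℕ}

theorem Data.ne_bot (h : Data G χ N k m) : N ≠ ⊥ := by
  rintro rfl
  have h1 := h.cardN
  rw [Subgroup.card_bot] at h1
  have := h.kpos
  omega

theorem Data.faithful (h : Data G χ N k m) (g : G) (hg : χ g = χ 1) : g = 1 := by
  by_contra hne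
  have h1 : χ 1 ≠ 0 := by
    rw [h.one]
    have := h.mpos
    have := h.kpos
    exact_mod_cast Nat.mul_ne_zero h.mpos.ne' h.kpos.ne'
  have h2 : g ∈ N := (h.mem g).2 (by rw [hg]; exact h1)
  rw [h.val g h2 hne, h.one] at hg
  have h3 : ((m * k + m : ℕ) : ℂ) = 0 := by push_cast; linear_combination -hg
  have h4 : m * k + m = 0 := by exact_mod_cast h3
  have := h.mpos
  omega

theorem Data.minimal (h : Data G χ N k m) (hirr : IsIrrCharacter G χ) (K : Subgroup G) (hK : K.Normal) (hne : K ≠ ⊥) :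
    N ≤ K := by
  haveI : Fintype G := Fintype.ofFinite G
  haveI : Fintype K := Fintype.ofFinite K
  by_contra hNK
  have h1 : ∀ y ∈ K, y ∈ N → y = 1 := by
    intro y hyK hyN
    by_contra hy1
    apply hNK
    intro x hx
    by_cases hx1 : x = 1
    · rw [hx1]; exact K.one_mem
    · obtain ⟨c, hc⟩ := h.conjN y hyN x hx hy1 hx1
      rw [← hc]; exact hK.conj_mem y hyK c
  have h2 : ∑ n : K, χ (n * 1) = χ 1 := by
    rw [Finset.sum_eq_single (1 : K)]
    · simp
    · intro b _ hb
      by_contra hcon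
      apply hb
      rw [mul_one] at hcon
      exact Subtype.ext (h1 b b.2 ((h.mem b).2 hcon))
    · intro hcon; exact absurd (Finset.mem_univ _) hcon
  have h3 := CfsgLib.GalChar2.avg_irr K hirr 1
  rw [h2] at h3
  have h4 := irr_one_ne_zero hirr
  have h5 : (Nat.card K : ℂ) ≠ 0 := by exact_mod_cast Nat.card_pos.ne'
  split_ifs at h3 with h6
  · have h7 : (Nat.card K : ℂ) = 1 := by
      field_simp at h3
      exact h3.symm
    apply hne
    rw [← Subgroup.card_eq_one]
    exact_mod_cast h7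
  · exact (mul_ne_zero (inv_ne_zero h5) h4) h3

theorem Data.elem (h : Data G χ N k m) : ∃ p : ℕ, p.Prime ∧ IsElementaryAbelian p N := by
  have hne1 : Nat.card N ≠ 1 := by rw [h.cardN]; have := h.kpos; omega
  obtain ⟨p, hp, hpd⟩ := Nat.exists_prime_and_dvd hne1
  haveI : Fact p.Prime := ⟨hp⟩
  obtain ⟨y, hy⟩ := exists_prime_orderOf_dvd_card' p hpd
  have hy1 : (y : G) ≠ 1 := by
    intro hcon
    have : y = 1 := Subtype.ext hcon
    rw [this, orderOf_one] at hy
    exact hp.one_lt.ne hy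
  have hexp : ∀ a ∈ N, a ^ p = 1 := by
    intro a ha
    by_cases ha1 : a = 1
    · rw [ha1, one_pow]
    · obtain ⟨c, hc⟩ := h.conjN y y.2 a ha hy1 ha1
      rw [← hc, conj_pow]
      have : (y : G) ^ p = 1 := by
        have h1 := pow_orderOf_eq_one y
        rw [hy] at h1
        exact_mod_cast h1
      rw [this]; simp
  have hpg : IsPGroup p N := by
    intro x
    refine ⟨1, ?_⟩
    rw [pow_one]
    exact Subtype.ext (hexp x x.2)
  haveI : Nontrivial N := by
    rw [Subgroup.nontrivial_iff_ne_bot]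
    exact h.ne_bot
  haveI := hpg.center_nontrivial
  obtain ⟨⟨z, hz⟩, hz1⟩ := exists_ne (1 : Subgroup.center N)
  have hz1' : (z : G) ≠ 1 := by
    intro hcon
    apply hz1
    exact Subtype.ext (Subtype.ext hcon)
  have hzc : ∀ y ∈ N, y * (z : G) = z * y := by
    intro y hy
    have := (Subgroup.mem_center_iff.1 hz) ⟨y, hy⟩
    exact congrArg Subtype.val this
  refine ⟨p, hp, ⟨⟨fun a b => ?_⟩⟩, hexp⟩
  apply Subtype.ext
  change (a : G) * b = b * a
  by_cases ha1 : (a : G) = 1
  · rw [ha1]; simp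
  · obtain ⟨c, hc⟩ := h.conjN z z.2 a a.2 hz1' ha1
    have hb : c⁻¹ * (b : G) * c ∈ N := by
      have := h.normal.conj_mem b b.2 c⁻¹
      simpa using this
    have h1 := hzc _ hb
    rw [← hc]
    calc c * (z : G) * c⁻¹ * b = c * (z * (c⁻¹ * b * c)) * c⁻¹ := by group
      _ = c * ((c⁻¹ * b * c) * z) * c⁻¹ := by rw [h1]
      _ = b * (c * z * c⁻¹) := by group

theorem Data.not_faithful (h : Data G χ N k m) (ψ : IrrCharacter G)
    (hψ : ∀ g : G, (ψ : G → ℂ) g = (ψ : G → ℂ) 1 → g = 1) : (ψ : G → ℂ) = χ := by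
  by_contra hne
  apply h.ne_bot
  rw [Subgroup.eq_bot_iff_forall]
  intro x hx
  exact hψ x (h.other ψ hne x hx)

/-- the restriction of `χ` to a subgroup meeting `N` trivially -/
theorem Data.dvd_of_disjoint (h : Data G χ N k m) (hirr : IsIrrCharacter G χ) (Q : Subgroup G)
    (hQ : ∀ x ∈ Q, x ∈ N → x = 1) : Nat.card Q ∣ m * k := by
  haveI : Fintype G := Fintype.ofFinite G
  haveI : Fintype Q := Fintype.ofFinite Q
  obtain ⟨n, hn⟩ := char_mult (isCharacter_restrict (irr_isCharacter hirr) Q) (isCharacter_one (G := Q))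
  rw [inner_one_right] at hn
  have h2 : ∑ x : Q, χ x = χ 1 := by
    rw [Finset.sum_eq_single (1 : Q)]
    · simp
    · intro b _ hb
      by_contra hcon
      apply hb
      exact Subtype.ext (hQ b b.2 ((h.mem b).2 hcon))
    · intro hcon; exact absurd (Finset.mem_univ _) hcon
  rw [h2, h.one] at hn
  have h5 : (Nat.card Q : ℂ) ≠ 0 := by exact_mod_cast Nat.card_pos.ne'
  have h6 : ((m * k : ℕ) : ℂ) = ((Nat.card Q * n : ℕ) : ℂ) := by
    push_cast; rw [← hn]; field_simp
  exact ⟨n, by exact_mod_cast h6⟩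

/-- `m` is a power of `p` -/
theorem Data.m_pow (h : Data G χ N k m) (hirr : IsIrrCharacter G χ) {p : ℕ} [Fact p.Prime] (hNp : IsPGroup p N) :
    ∃ a : ℕ, m = p ^ a := by
  have hp : p.Prime := Fact.out
  have hm := h.mpos
  -- a prime divisor `q ≠ p` is impossible
  have key : ∀ q : ℕ, q.Prime → q ∣ m → q = p := by
    intro q hq hqm
    by_contra hne
    haveI : Fact q.Prime := ⟨hq⟩
    obtain ⟨Q⟩ : Nonempty (Sylow q G) := inferInstance
    have hcop : Nat.Coprime (Nat.card (Q : Subgroup G)) (Nat.card N) := by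
      obtain ⟨a, ha⟩ := (IsPGroup.iff_card).1 Q.isPGroup'
      obtain ⟨b, hb⟩ := (IsPGroup.iff_card).1 hNp
      rw [ha, hb]
      exact Nat.Coprime.pow _ _ ((Nat.coprime_primes hq hp).2 hne)
    have hQN : ∀ x ∈ (Q : Subgroup G), x ∈ N → x = 1 := by
      intro x hx hxN
      have h1 : orderOf x ∣ Nat.card (Q : Subgroup G) := by
        rw [← Subgroup.orderOf_mk x hx]; exact orderOf_dvd_natCard _
      have h2 : orderOf x ∣ Nat.card N := by
        rw [← Subgroup.orderOf_mk x hxN]; exact orderOf_dvd_natCard _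
      exact orderOf_eq_one_iff.1 (Nat.eq_one_of_dvd_coprimes hcop h1 h2)
    have h1 := h.dvd_of_disjoint hirr (Q : Subgroup G) hQN
    rw [Sylow.card_eq_multiplicity] at h1
    have h3 := h.cardG
    have hfac : (Nat.card G).factorization q = 2 * m.factorization q + k.factorization q := by
      have hkN : (k + 1).factorization q = 0 := by
        apply Nat.factorization_eq_zero_of_not_dvd
        intro hqk
        rw [← h.cardN] at hqk
        obtain ⟨b, hb⟩ := (IsPGroup.iff_card).1 hNp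
        rw [hb] at hqk
        exact hne ((Nat.prime_dvd_prime_iff_eq hq hp).1 (hq.dvd_of_dvd_pow hqk))
      rw [h3, Nat.factorization_mul (Nat.mul_ne_zero (pow_ne_zero 2 hm.ne') h.kpos.ne') (by omega), Nat.factorization_mul (pow_ne_zero 2 hm.ne') h.kpos.ne',
        Nat.factorization_pow]
      simp [hkN]
    rw [hfac] at h1
    have h4 := (Nat.Prime.pow_dvd_iff_le_factorization hq (Nat.mul_ne_zero hm.ne' h.kpos.ne')).1 h1
    rw [Nat.factorization_mul hm.ne' h.kpos.ne'] at h4
    simp only [Finsupp.add_apply] at h4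
    have h5 : 0 < m.factorization q := hq.factorization_pos_of_dvd hm.ne' hqm
    omega
  exact ⟨_, Nat.eq_prime_pow_of_unique_prime_dvd hm.ne' (fun {q} hq hqm => key q hq hqm)⟩

end More

end CfsgLib.Gag19
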