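import Mathlib
import Cfsg.Agent.EqBase
import Cfsg.Agent.LibGalProd19
import Cfsg.Agent.LibNilExt19
import Cfsg.Agent.LibMinN19
import Cfsg.Agent.LibDefB19
import Cfsg.Agent.LibFixIrr19
import Cfsg.Agent.LibSolvNilp

set_option autoImplicit false
set_option maxHeartbeats 400000
set_option linter.unusedSectionVars false

/-! `p`-groups whose nonlinear characters of equal degree are Galois conjugate (helper19) -/

namespace CfsgLib.GalDeg19

open Cfsg CfsgLib.CharBasic CfsgLib.Clifford CfsgLib.Extend CfsgLib.CharIndA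
open scoped ComplexConjugate commutatorElement Pointwise

universe u v

section Basic
variable {G : Type u} [Group G] [Finite G]

theorem sum_norm_sq [Fintype G] {χ : G → ℂ} (hχ : IsIrrCharacter G χ) : ∑ g : G, ‖χ g‖ ^ 2 = (Nat.card G : ℝ) := by
  have h1 := irr_inner_self hχ
  rw [inner_self_eq] at h1
  have h2 : (Nat.card G : ℝ)⁻¹ * ∑ g : G, ‖χ g‖ ^ 2 = 1 := by exact_mod_cast h1
  have h3 : (Nat.card G : ℝ) ≠ 0 := by exact_mod_cast Nat.card_pos.ne'
  have h4 := congrArg (fun t : ℝ => (Nat.card G : ℝ) * t) h2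
  simp only [mul_one] at h4
  rw [← mul_assoc, mul_inv_cancel₀ h3, one_mul] at h4
  exact h4

theorem sum_sub {χ : G → ℂ} (hχ : IsIrrCharacter G χ) (S : Subgroup G) [Fintype S] (hv : ∀ g, g ∉ S → χ g = 0) :
    ∑ s : S, ‖χ s‖ ^ 2 = (Nat.card G : ℝ) := by
  classical
  letI := Fintype.ofFinite G
  rw [← sum_norm_sq hχ, ← Finset.sum_subtype (Finset.univ.filter (fun g => g ∈ S)) (p := fun g => g ∈ S) (by simp) (fun g => ‖χ g‖ ^ 2)]
  apply Finset.sum_subset (Finset.filter_subset _ _)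
  intro g _ hg
  rw [hv g (by simpa using hg)]; simp

theorem norm_le {χ : G → ℂ} (hχ : IsIrrCharacter G χ) (g : G) : ‖χ g‖ ≤ charDegree χ := by
  have h1 := char_norm_le (irr_isCharacter hχ) g
  rwa [CfsgLib.CharInt.irr_one_eq_charDegree hχ, Complex.natCast_re] at h1

theorem irr1 {χ : G → ℂ} (hχ : IsIrrCharacter G χ) : χ 1 ≠ 0 := by
  letI := Fintype.ofFinite G
  exact irr_one_ne_zero hχ

theorem charDegree_pos {χ : G → ℂ} (hχ : IsIrrCharacter G χ) : 0 < charDegree χ := by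
  have h1 := irr1 hχ
  rw [CfsgLib.CharInt.irr_one_eq_charDegree hχ] at h1
  exact Nat.pos_of_ne_zero (by exact_mod_cast h1)

theorem index_le_sq {χ : G → ℂ} (hχ : IsIrrCharacter G χ) (S : Subgroup G) (hv : ∀ g, g ∉ S → χ g = 0) : S.index ≤ charDegree χ ^ 2 := by
  classical
  letI := Fintype.ofFinite S
  have h1 := sum_sub hχ S hv
  have h2 : ∑ s : S, ‖χ s‖ ^ 2 ≤ ∑ s : S, (charDegree χ : ℝ) ^ 2 := by
    apply Finset.sum_le_sum
    intro s _
    exact pow_le_pow_left₀ (norm_nonneg _) (norm_le hχ s) 2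
  rw [h1, Finset.sum_const, Finset.card_univ, ← Nat.card_eq_fintype_card, nsmul_eq_mul] at h2
  have h3 : Nat.card G ≤ Nat.card S * charDegree χ ^ 2 := by exact_mod_cast h2
  rw [← Subgroup.card_mul_index S] at h3
  exact Nat.le_of_mul_le_mul_left h3 Nat.card_pos

theorem norm_eq {χ : G → ℂ} (hχ : IsIrrCharacter G χ) (S : Subgroup G) (hv : ∀ g, g ∉ S → χ g = 0) (h : charDegree χ ^ 2 ≤ S.index)
    (s : G) (hs : s ∈ S) : ‖χ s‖ = charDegree χ := by
  classical
  letI := Fintype.ofFinite S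
  have h1 := sum_sub hχ S hv
  have h2 : ∑ s : S, ((charDegree χ : ℝ) ^ 2 - ‖χ s‖ ^ 2) ≤ 0 := by
    rw [Finset.sum_sub_distrib, h1, Finset.sum_const, Finset.card_univ, ← Nat.card_eq_fintype_card, nsmul_eq_mul, sub_nonpos]
    have h3 : Nat.card S * charDegree χ ^ 2 ≤ Nat.card G := by
      rw [← Subgroup.card_mul_index S]
      exact Nat.mul_le_mul_left _ h
    exact_mod_cast h3
  have h3 : ∀ s : S, 0 ≤ (charDegree χ : ℝ) ^ 2 - ‖χ s‖ ^ 2 := fun s =>
    sub_nonneg.2 (pow_le_pow_left₀ (norm_nonneg _) (norm_le hχ s) 2)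
  have h4 : ∑ s : S, ((charDegree χ : ℝ) ^ 2 - ‖χ s‖ ^ 2) = 0 := le_antisymm h2 (Finset.sum_nonneg fun s _ => h3 s)
  have h5 := (Finset.sum_eq_zero_iff_of_nonneg fun s _ => h3 s).1 h4 ⟨s, hs⟩ (Finset.mem_univ _)
  have h6 : ‖χ s‖ ^ 2 = (charDegree χ : ℝ) ^ 2 := by
    change (charDegree χ : ℝ) ^ 2 - ‖χ s‖ ^ 2 = 0 at h5
    linarith
  exact (pow_left_inj₀ (norm_nonneg _) (Nat.cast_nonneg _) two_ne_zero).1 h6

end Basic

/-- nonlinear characters of the same degree are Galois conjugate -/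
def GC (G : Type u) [Group G] [Finite G] : Prop :=
  ∀ χ ψ : Cfsg.IrrCharacter G, Cfsg.charDegree (χ : G → ℂ) ≠ 1 → Cfsg.charDegree (χ : G → ℂ) = Cfsg.charDegree (ψ : G → ℂ) →
    ∃ k : ℕ, Nat.Coprime k (Nat.card G) ∧ ∀ g : G, (ψ : G → ℂ) g = (χ : G → ℂ) (g ^ k)

section GCsec
variable {G : Type u} [Group G] [Finite G]

theorem GC.quot (h : GC G) (N : Subgroup G) [N.Normal] : GC (G ⧸ N) := by
  intro χ ψ h1 h2
  obtain ⟨k, hk, hk2⟩ := h ⟨fun g => (χ : G ⧸ N → ℂ) g, CfsgLib.Quot19.irr_inflate N χ.2⟩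
    ⟨fun g => (ψ : G ⧸ N → ℂ) g, CfsgLib.Quot19.irr_inflate N ψ.2⟩ h1 h2
  refine ⟨k, Nat.Coprime.coprime_dvd_right (Subgroup.card_quotient_dvd_card N) hk, fun g => ?_⟩
  obtain ⟨g, rfl⟩ := QuotientGroup.mk_surjective g
  exact hk2 g

theorem GC.twist (h : GC G) {χ : G → ℂ} (hχ : IsIrrCharacter G χ) (hd : charDegree χ ≠ 1) (l : G →* ℂˣ) :
    ∃ k : ℕ, Nat.Coprime k (Nat.card G) ∧ ∀ g : G, (l g : ℂ) * χ g = χ (g ^ k) := by
  letI := Fintype.ofFinite G
  exact h ⟨χ, hχ⟩ ⟨_, CfsgLib.Once19.irr_mul_lin hχ l⟩ hd (CfsgLib.NilExt19.charDegree_mul_lin l hχ).symm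

theorem ker_pow {χ : G → ℂ} (hχ : IsIrrCharacter G χ) {x : G} (hx : χ x = χ 1) (k : ℕ) : χ (x ^ k) = χ 1 := by
  induction k with
  | zero => rw [pow_zero]
  | succ k ih => rw [pow_succ, (char_mul_of_ker (irr_isCharacter hχ) hx _).2, ih]

theorem mem_commutator_of_lin {x : G} (hx : ∀ l : G →* ℂˣ, l x = 1) : x ∈ commutator G := by
  by_contra h
  have h1 : ((x : G) : G ⧸ commutator G) ≠ 1 := by
    rw [Ne, QuotientGroup.eq_one_iff]; exact h
  have hab : ∀ a b : G ⧸ commutator G, a * b = b * a := by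
    intro a b
    obtain ⟨a, rfl⟩ := QuotientGroup.mk_surjective a
    obtain ⟨b, rfl⟩ := QuotientGroup.mk_surjective b
    rw [← QuotientGroup.mk_mul, ← QuotientGroup.mk_mul, QuotientGroup.eq]
    have h2 : (a * b)⁻¹ * (b * a) = ⁅b⁻¹, a⁻¹⁆ := by rw [commutatorElement_def]; group
    rw [h2]
    exact Subgroup.commutator_mem_commutator (Subgroup.mem_top _) (Subgroup.mem_top _)
  obtain ⟨f, hf⟩ := exists_hom_ne_one hab h1
  exact hf (hx (f.comp (QuotientGroup.mk' (commutator G))))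

theorem GC.ker_le (h : GC G) {χ : G → ℂ} (hχ : IsIrrCharacter G χ) (hd : charDegree χ ≠ 1) {x : G} (hx : χ x = χ 1) :
    x ∈ commutator G := by
  apply mem_commutator_of_lin
  intro l
  obtain ⟨k, -, hk⟩ := h.twist hχ hd l
  have h1 := hk x
  rw [ker_pow hχ hx, hx] at h1
  have h2 : (l x : ℂ) = 1 := mul_right_cancel₀ (irr1 hχ) (by rw [h1, one_mul])
  exact Units.ext h2

theorem lin_of_commutator_le {χ : G → ℂ} (hχ : IsIrrCharacter G χ) (h : ∀ x ∈ commutator G, χ x = χ 1) : charDegree χ = 1 := by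
  letI := Fintype.ofFinite G
  haveI : Finite (G ⧸ commutator G) := inferInstance
  obtain ⟨χ', h1, h2⟩ := CfsgLib.Quot19.irr_deflate (commutator G) hχ h
  letI := Fintype.ofFinite (G ⧸ commutator G)
  have hab : ∀ a b : G ⧸ commutator G, a * b = b * a := by
    intro a b
    obtain ⟨a, rfl⟩ := QuotientGroup.mk_surjective a
    obtain ⟨b, rfl⟩ := QuotientGroup.mk_surjective b
    rw [← QuotientGroup.mk_mul, ← QuotientGroup.mk_mul, QuotientGroup.eq]
    have h2 : (a * b)⁻¹ * (b * a) = ⁅b⁻¹, a⁻¹⁆ := by rw [commutatorElement_def]; group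
    rw [h2]
    exact Subgroup.commutator_mem_commutator (Subgroup.mem_top _) (Subgroup.mem_top _)
  have h3 := irr_degree_one_of_comm hab h1
  have h4 : χ 1 = 1 := by rw [← h2 1]; exact h3
  rw [CfsgLib.CharInt.irr_one_eq_charDegree hχ] at h4
  exact_mod_cast h4

theorem lin_ker {χ : G → ℂ} (hχ : IsIrrCharacter G χ) (hd : charDegree χ = 1) {x : G} (hx : x ∈ commutator G) : χ x = χ 1 := by
  have h1 : χ 1 = 1 := by rw [CfsgLib.CharInt.irr_one_eq_charDegree hχ, hd]; simp
  obtain ⟨f, hf⟩ := exists_hom_of_linear (irr_isCharacter hχ) h1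
  have h2 : f x = 1 := (Abelianization.commutator_subset_ker f) hx
  rw [h1, hf, h2, Units.val_one]

theorem central_lin {χ : G → ℂ} (hχ : IsIrrCharacter G χ) :
    ∃ f : Subgroup.center G →* ℂˣ, ∀ (c : Subgroup.center G) (g : G), χ (c * g) = (f c : ℂ) * χ g := by
  letI := Fintype.ofFinite G
  exact CfsgLib.GalProd19.central_lin ⟨χ, hχ⟩

/-- the key count -/
theorem GC.count (h : GC G) {χ : G → ℂ} (hχ : IsIrrCharacter G χ) (hd : charDegree χ ≠ 1) (Y : Subgroup G)
    (hY : commutator G ≤ Y) (hZ : Subgroup.center G ≤ Y) (m : ℕ) (hm : 0 < m) (hmz : ∀ g : G, g ^ m ∈ Subgroup.center G) :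
    ∃ V : Subgroup G, (∀ g, g ∉ V → χ g = 0) ∧ Y.index ≤ V.index * m := by
  classical
  haveI : Finite (G →* ℂˣ) := CfsgLib.Resid19.finite_hom
  set V : Subgroup G := Subgroup.closure {g | χ g ≠ 0} with hV
  refine ⟨V, fun g hg => ?_, ?_⟩
  · by_contra h0
    exact hg (Subgroup.subset_closure h0)
  · haveI : NeZero m := ⟨hm.ne'⟩
    obtain ⟨f, hf⟩ := central_lin hχ
    have hfpos : 0 < orderOf f := orderOf_pos_iff.2 (isOfFinOrder_of_finite f)
    -- data
    have hdata : ∀ l : {ν : G →* ℂˣ // ∀ i ∈ Y, ν i = 1}, ∃ t : ℕ, ∀ g : G, (l.1 g : ℂ) * χ g = χ (g ^ (1 + orderOf f * t)) := by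
      intro l
      obtain ⟨k, hk, hk2⟩ := h.twist hχ hd l.1
      have hk0 : k ≠ 0 := by
        rintro rfl
        rw [Nat.coprime_zero_left] at hk
        have h1 := CfsgLib.CharInt2.charDegree_dvd_card hχ
        rw [hk] at h1
        exact hd (Nat.dvd_one.1 h1)
      obtain ⟨j, rfl⟩ := Nat.exists_eq_succ_of_ne_zero hk0
      have h1 : f ^ j = 1 := by
        ext c
        have h2 := hk2 (c : G)
        rw [l.2 c (hZ c.2), Units.val_one, one_mul] at h2
        have h3 : χ c = (f c : ℂ) * χ 1 := by rw [← hf, mul_one]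
        have h4 : χ ((c : G) ^ (j + 1)) = (f (c ^ (j + 1)) : ℂ) * χ 1 := by rw [← hf, mul_one]; rfl
        rw [Nat.succ_eq_add_one, h4, h3, map_pow, pow_succ, Units.val_mul] at h2
        have h5 := mul_right_cancel₀ (irr1 hχ) h2
        have h6 : ((f c ^ j : ℂˣ) : ℂ) = 1 := by
          apply mul_right_cancel₀ (Units.ne_zero (f c))
          rw [one_mul, ← h5]
        rw [MonoidHom.pow_apply, h6]; rfl
      obtain ⟨t, ht⟩ := (orderOf_dvd_iff_pow_eq_one (x := f) (n := j)).2 h1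
      refine ⟨t, fun g => ?_⟩
      rw [hk2, ht, Nat.succ_eq_add_one, add_comm]
    choose t ht using hdata
    have hper : ∀ (a s : ℕ) (g : G), χ (g ^ (1 + orderOf f * (a + m * s))) = χ (g ^ (1 + orderOf f * a)) := by
      intro a s g
      have h1 : g ^ (1 + orderOf f * (a + m * s)) = ((⟨g ^ m, hmz g⟩ : Subgroup.center G) ^ (orderOf f * s) : Subgroup.center G) * g ^ (1 + orderOf f * a) := by
        rw [Subgroup.coe_pow, ← pow_mul, ← pow_add]
        congr 1
        ring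
      rw [h1, hf, map_pow, pow_mul]
      have h2 : f ⟨g ^ m, hmz g⟩ ^ orderOf f = 1 := by
        have h3 := congrArg (fun F : Subgroup.center G →* ℂˣ => F ⟨g ^ m, hmz g⟩) (pow_orderOf_eq_one f)
        exact h3
      rw [h2, one_pow, Units.val_one, one_mul]
    have hcount := CfsgLib.MinN19.count_le V (L := {ν : G →* ℂˣ // ∀ i ∈ Y, ν i = 1}) (S := ZMod m)
      (fun l => ((t l : ℕ) : ZMod m)) (fun l => l.1) Subtype.val_injective ?_
    · rw [Nat.card_zmod] at hcount
      refine le_trans ?_ hcount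
      have h1 : Y.Normal := CfsgLib.MinN19.normal_of_comm_le' hY
      have hab : ∀ a b : G ⧸ Y, a * b = b * a := by
        intro a b
        obtain ⟨a, rfl⟩ := QuotientGroup.mk_surjective a
        obtain ⟨b, rfl⟩ := QuotientGroup.mk_surjective b
        rw [← QuotientGroup.mk_mul, ← QuotientGroup.mk_mul, QuotientGroup.eq]
        have h2 : (a * b)⁻¹ * (b * a) = ⁅b⁻¹, a⁻¹⁆ := by rw [commutatorElement_def]; group
        rw [h2]
        exact hY (Subgroup.commutator_mem_commutator (Subgroup.mem_top _) (Subgroup.mem_top _))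
      letI : CommGroup (G ⧸ Y) := { (inferInstance : Group (G ⧸ Y)) with mul_comm := hab }
      have h2 : Nat.card ((G ⧸ Y) →* ℂˣ) = Nat.card (G ⧸ Y) := card_hom_of_comm
      rw [Subgroup.index, ← h2]
      apply Nat.card_le_card_of_injective (fun ν : (G ⧸ Y) →* ℂˣ => (⟨ν.comp (QuotientGroup.mk' Y), fun i hi => by
        rw [MonoidHom.comp_apply, QuotientGroup.mk'_apply, (QuotientGroup.eq_one_iff i).2 hi, map_one]⟩ : {ν : G →* ℂˣ // ∀ i ∈ Y, ν i = 1}))
      intro a b hab2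
      ext g
      have h3 := DFunLike.congr_fun (congrArg Subtype.val hab2) g
      exact congrArg Units.val h3
    · intro l l' hll
      have hmod : t l ≡ t l' [MOD m] := (ZMod.natCast_eq_natCast_iff _ _ _).1 hll
      have heq : ∀ g : G, χ (g ^ (1 + orderOf f * t l)) = χ (g ^ (1 + orderOf f * t l')) := by
        intro g
        rcases le_total (t l) (t l') with hle | hle
        · obtain ⟨s, hs⟩ := (Nat.modEq_iff_dvd' hle).1 hmod
          have : t l' = t l + m * s := by omega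
          rw [this, hper]
        · obtain ⟨s, hs⟩ := (Nat.modEq_iff_dvd' hle).1 hmod.symm
          have : t l = t l' + m * s := by omega
          rw [this, hper]
      have hsup : V ≤ (l.1 / l'.1).ker := by
        rw [hV, Subgroup.closure_le]
        intro g hg
        have h1 := (ht l g).trans ((heq g).trans (ht l' g).symm)
        have h2 : (l.1 g : ℂ) = l'.1 g := mul_right_cancel₀ hg h1
        have h3 : l.1 g = l'.1 g := Units.ext h2
        change l.1 g / l'.1 g = 1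
        rw [h3, div_self']
      intro i hi
      have h1 : l.1 i / l'.1 i = 1 := hsup hi
      exact div_eq_one.1 h1

end GCsec

end CfsgLib.GalDeg19
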