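import Mathlib
import Cfsg.Agent.LibGalDeg19

set_option autoImplicit false
set_option maxHeartbeats 400000
set_option linter.unusedSectionVars false

/-! `p`-groups whose nonlinear characters of equal degree are Galois conjugate, structure (helper19) -/

namespace CfsgLib.GalDeg19

open Cfsg CfsgLib.CharBasic CfsgLib.Clifford CfsgLib.Extend CfsgLib.CharIndA Subgroup
open scoped ComplexConjugate commutatorElement Pointwise

universe u v

section Struct
variable {G : Type u} [Group G] [Finite G] {p : ℕ} [hp : Fact p.Prime]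

theorem central_of_card (hG : IsPGroup p G) (N : Subgroup G) [N.Normal] (hN : Nat.card N = p) : N ≤ center G := by
  haveI := hG.isNilpotent
  have h1 : N ⊓ center G ≠ ⊥ := by
    apply CfsgLib.SolvNilp.inf_center_ne_bot N
    rintro rfl
    rw [Subgroup.card_bot] at hN
    exact hp.out.one_lt.ne hN
  have h2 : Nat.card (N ⊓ center G : Subgroup G) ∣ p := by
    have := Subgroup.card_dvd_of_le (inf_le_left : N ⊓ center G ≤ N)
    rwa [hN] at this
  rcases (Nat.dvd_prime hp.out).1 h2 with h | h
  · exact absurd (Subgroup.card_eq_one.1 h) h1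
  · have h3 : N ⊓ center G = N := Subgroup.eq_of_le_of_card_ge inf_le_left (by rw [hN, h])
    rw [← h3]; exact inf_le_right

theorem pow_conj {a b c : G} (hc : Commute c a) (h : a * b * a⁻¹ = c * b) (n : ℕ) : a ^ n * b * (a ^ n)⁻¹ = c ^ n * b := by
  induction n with
  | zero => simp
  | succ n ih =>
    calc a ^ (n + 1) * b * (a ^ (n + 1))⁻¹ = a * (a ^ n * b * (a ^ n)⁻¹) * a⁻¹ := by rw [pow_succ']; group
      _ = a * c ^ n * a⁻¹ * (a * b * a⁻¹) := by rw [ih]; group
      _ = c ^ n * (c * b) := by
        rw [h, show a * c ^ n = c ^ n * a from (hc.pow_left n).symm.eq, mul_inv_cancel_right]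
      _ = c ^ (n + 1) * b := by rw [pow_succ, mul_assoc]

theorem pow_mem_center {a : G} (h : ∀ b : G, ⁅a, b⁆ ∈ center G ∧ ⁅a, b⁆ ^ p = 1) : a ^ p ∈ center G := by
  rw [Subgroup.mem_center_iff]
  intro b
  have h1 : a ^ p * b * (a ^ p)⁻¹ = ⁅a, b⁆ ^ p * b :=
    pow_conj ((Subgroup.mem_center_iff.1 (h b).1 a).symm) (by rw [commutatorElement_def]; group) p
  rw [(h b).2, one_mul] at h1
  calc b * a ^ p = (a ^ p * b * (a ^ p)⁻¹) * a ^ p := by rw [h1]
    _ = a ^ p * b := by group

theorem comm_mem (a b : G) : ⁅a, b⁆ ∈ commutator G :=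
  Subgroup.commutator_mem_commutator (Subgroup.mem_top _) (Subgroup.mem_top _)

theorem pow_of_mem_card {N : Subgroup G} (hN : Nat.card N = p) {c : G} (hc : c ∈ N) : c ^ p = 1 := by
  have h1 : (⟨c, hc⟩ : N) ^ p = 1 := by rw [← hN]; exact pow_card_eq_one'
  exact congrArg Subtype.val h1

theorem comm_facts (hG : IsPGroup p G) (hc : Nat.card (commutator G) = p) : commutator G ≤ center G ∧ ∀ c ∈ commutator G, c ^ p = 1 :=
  ⟨central_of_card hG _ hc, fun _ h => pow_of_mem_card hc h⟩

theorem pow_center (hG : IsPGroup p G) (hc : Nat.card (commutator G) = p) (a : G) : a ^ p ∈ center G :=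
  pow_mem_center fun b => ⟨(comm_facts hG hc).1 (comm_mem a b), (comm_facts hG hc).2 _ (comm_mem a b)⟩

theorem comm_bot (h : ∀ a b : G, a * b = b * a) : commutator G = ⊥ := by
  rw [commutator_def, Subgroup.commutator_eq_bot_iff_le_centralizer]
  intro a _
  rw [Subgroup.mem_centralizer_iff]
  intro b _
  exact h b a

/-- nontrivial elements of a subgroup of prime order generate it -/
theorem zpowers_eq {N : Subgroup G} (hN : Nat.card N = p) {x : G} (hx : x ∈ N) (hx1 : x ≠ 1) : zpowers x = N := by
  apply Subgroup.eq_of_le_of_card_ge (by rwa [zpowers_le])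
  rw [hN, Nat.card_zpowers]
  have h1 : orderOf x ∣ p := orderOf_dvd_of_pow_eq_one (pow_of_mem_card hN hx)
  rcases (Nat.dvd_prime hp.out).1 h1 with h | h
  · exact absurd (orderOf_eq_one_iff.1 h) hx1
  · exact h.ge

theorem ker_zpowers {χ : G → ℂ} (hχ : IsIrrCharacter G χ) {x y : G} (hx : χ x = χ 1) (hy : y ∈ zpowers x) : χ y = χ 1 := by
  rw [← mem_powers_iff_mem_zpowers] at hy
  obtain ⟨k, rfl⟩ := hy
  exact ker_pow hχ hx k

theorem faithful_on (hc : Nat.card (commutator G) = p) {χ : G → ℂ} (hχ : IsIrrCharacter G χ) (hd : charDegree χ ≠ 1) {x : G}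
    (hx : x ∈ commutator G) (hx1 : χ x = χ 1) : x = 1 := by
  by_contra hne
  apply hd
  apply lin_of_commutator_le hχ
  intro y hy
  rw [← zpowers_eq hc hx hne] at hy
  exact ker_zpowers hχ hx1 hy

theorem vanish (hG : IsPGroup p G) (hc : Nat.card (commutator G) = p) {χ : G → ℂ} (hχ : IsIrrCharacter G χ) (hd : charDegree χ ≠ 1) {g : G}
    (hg : g ∉ center G) : χ g = 0 := by
  letI := Fintype.ofFinite G
  rw [Subgroup.mem_center_iff] at hg
  push Not at hg
  obtain ⟨h, hh⟩ := hg
  obtain ⟨f, hf⟩ := central_lin hχ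
  have hz : ⁅h, g⁆ ∈ commutator G := comm_mem h g
  have hzc := (comm_facts hG hc).1 hz
  have h1 : h * g * h⁻¹ = ⁅h, g⁆ * g := by rw [commutatorElement_def]; group
  have h2 : χ g = (f ⟨_, hzc⟩ : ℂ) * χ g := by
    rw [← hf, ← h1]
    exact (irr_classFun hχ g h).symm
  by_contra h0
  have h3 : (f ⟨_, hzc⟩ : ℂ) = 1 := mul_right_cancel₀ h0 (by rw [← h2, one_mul])
  have h4 : χ ⁅h, g⁆ = χ 1 := by
    have := hf ⟨_, hzc⟩ 1
    rwa [h3, one_mul, mul_one] at this
  have h5 := faithful_on hc hχ hd hz h4
  rw [commutatorElement_eq_one_iff_mul_comm] at h5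
  exact hh h5

theorem sq_eq (hG : IsPGroup p G) (hc : Nat.card (commutator G) = p) {χ : G → ℂ} (hχ : IsIrrCharacter G χ) (hd : charDegree χ ≠ 1) :
    charDegree χ ^ 2 = (center G).index :=
  le_antisymm (CfsgLib.TwoDeg19.sq_le_index hχ) (index_le_sq hχ _ fun _ hg => vanish hG hc hχ hd hg)

theorem exists_nonlinear (hab : ∃ a b : G, a * b ≠ b * a) : ∃ χ : G → ℂ, IsIrrCharacter G χ ∧ charDegree χ ≠ 1 := by
  by_contra hcon
  push Not at hcon
  obtain ⟨a, b, hab⟩ := hab
  apply hab
  apply CfsgLib.FixIrr19.comm_of_linear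
  intro χ
  rw [CfsgLib.CharInt.irr_one_eq_charDegree χ.2, hcon _ χ.2]
  simp

theorem cyclic_center (h : GC G) (hab : ∃ a b : G, a * b ≠ b * a) (hc : Nat.card (commutator G) = p) : IsCyclic (center G) := by
  obtain ⟨χ, hχ, hd⟩ := exists_nonlinear hab
  obtain ⟨f, hf⟩ := central_lin hχ
  apply isCyclic_of_injective_ringHom ((Units.coeHom ℂ).comp f)
  rw [injective_iff_map_eq_one]
  intro c hc1
  have h1 : (f c : ℂ) = 1 := hc1
  have h2 := hf c 1
  rw [h1, one_mul, mul_one] at h2
  exact Subtype.ext (faithful_on hc hχ hd (h.ker_le hχ hd h2) h2)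

theorem card_quot_comm (K : Subgroup G) [K.Normal] (hK : K ≤ commutator G) :
    Nat.card (commutator (G ⧸ K)) * Nat.card K = Nat.card (commutator G) := by
  have h1 : commutator (G ⧸ K) = (commutator G).map (QuotientGroup.mk' K) := by
    rw [commutator_def, commutator_def, Subgroup.map_commutator, Subgroup.map_top_of_surjective _ (QuotientGroup.mk'_surjective K)]
  have h2 := Subgroup.index_map (commutator G) (QuotientGroup.mk' K)
  rw [QuotientGroup.ker_mk', sup_eq_left.2 hK, MonoidHom.range_eq_top.2 (QuotientGroup.mk'_surjective K), Subgroup.index_top, mul_one, ← h1] at h2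
  have h3 := Subgroup.card_mul_index (commutator (G ⧸ K))
  have h4 := Subgroup.card_mul_index (commutator G)
  have h5 := Subgroup.card_eq_card_quotient_mul_card_subgroup K
  rw [h2] at h3
  have h6 : 0 < (commutator G).index := Nat.pos_of_ne_zero Subgroup.index_ne_zero_of_finite
  apply Nat.eq_of_mul_eq_mul_right h6
  rw [h4, h5, ← h3]
  ring

theorem comm_mod (hG : IsPGroup p G) (K : Subgroup G) [K.Normal] (hK : K ≤ commutator G) (hc : Nat.card (commutator G) = p * Nat.card K)
    {c : G} (hcc : c ∈ commutator G) : c ^ p ∈ K ∧ ∀ y : G, ⁅c, y⁆ ∈ K := by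
  have h1 := card_quot_comm K hK
  rw [hc] at h1
  have h2 := Nat.eq_of_mul_eq_mul_right Nat.card_pos h1
  have h3 := comm_facts (hG.to_quotient K) h2
  have h4 : (c : G ⧸ K) ∈ commutator (G ⧸ K) := by
    have h5 : commutator (G ⧸ K) = (commutator G).map (QuotientGroup.mk' K) := by
      rw [commutator_def, commutator_def, Subgroup.map_commutator, Subgroup.map_top_of_surjective _ (QuotientGroup.mk'_surjective K)]
    rw [h5]
    exact ⟨c, hcc, rfl⟩
  constructor
  · rw [← QuotientGroup.eq_one_iff]
    exact h3.2 _ h4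
  · intro y
    rw [← QuotientGroup.eq_one_iff]
    have h5 := Subgroup.mem_center_iff.1 (h3.1 h4) (y : G ⧸ K)
    change ⁅(c : G ⧸ K), (y : G ⧸ K)⁆ = 1
    rw [commutatorElement_eq_one_iff_mul_comm, h5]

end Struct

section Main
variable {p : ℕ} [hp : Fact p.Prime]

theorem main_aux (n : ℕ) : ∀ {G : Type u} [Group G] [Finite G], Nat.card G = n → IsPGroup p G → (∃ a b : G, a * b ≠ b * a) → GC G →
    Nat.card (commutator G) = p := by
  induction n using Nat.strong_induction_on with
  | _ n ih =>
    intro G _ _ hn hG hab hGC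
    classical
    letI := Fintype.ofFinite G
    haveI := hG.isNilpotent
    by_contra hcard
    have hG'ne : commutator G ≠ ⊥ := by
      intro h
      obtain ⟨a, b, hab⟩ := hab
      apply hab
      have h1 := comm_mem a b
      rwa [h, Subgroup.mem_bot, commutatorElement_eq_one_iff_mul_comm] at h1
    have h1 := CfsgLib.SolvNilp.inf_center_ne_bot (commutator G) hG'ne
    have h2 : p ∣ Nat.card (commutator G ⊓ center G : Subgroup G) := by
      rcases (hG.to_subgroup (commutator G ⊓ center G)).card_eq_or_dvd with h | h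
      · exact absurd (Subgroup.card_eq_one.1 h) h1
      · exact h
    obtain ⟨z', hzo'⟩ := exists_prime_orderOf_dvd_card' p h2
    obtain ⟨z, hzG, hzZ⟩ := z'
    have hzo : orderOf z = p := by rw [← hzo']; exact (Subgroup.orderOf_mk _ _).symm
    have hz1 : z ≠ 1 := by
      rintro rfl
      rw [orderOf_one] at hzo
      exact hp.out.one_lt.ne hzo
    set M := zpowers z with hM
    have hMZ : M ≤ center G := by rwa [hM, zpowers_le]
    have hMG : M ≤ commutator G := by rwa [hM, zpowers_le]
    haveI hMn : M.Normal := ⟨fun x hx g => by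
      rw [Subgroup.mem_center_iff.1 (hMZ hx) g, mul_inv_cancel_right]; exact hx⟩
    have hMc : Nat.card M = p := by rw [hM, Nat.card_zpowers, hzo]
    have hquo := card_quot_comm M hMG
    rw [hMc] at hquo
    have hGb : IsPGroup p (G ⧸ M) := hG.to_quotient M
    have habb : ∃ a b : G ⧸ M, a * b ≠ b * a := by
      by_contra hcon
      push Not at hcon
      rw [comm_bot hcon, Subgroup.card_bot, one_mul] at hquo
      exact hcard hquo.symm
    have hcb : Nat.card (commutator (G ⧸ M)) = p := by
      refine ih (Nat.card (G ⧸ M)) ?_ rfl hGb habb (hGC.quot M)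
      rw [← hn, Subgroup.card_eq_card_quotient_mul_card_subgroup M, hMc]
      exact lt_mul_of_one_lt_right Nat.card_pos hp.out.one_lt
    rw [hcb] at hquo
    have hcyc := cyclic_center (hGC.quot M) habb hcb
    set f := QuotientGroup.mk' M with hf
    have hfs : Function.Surjective f := QuotientGroup.mk'_surjective M
    set Y := (center (G ⧸ M)).comap f with hY
    have hYmod : ∀ y ∈ Y, ∀ b : G, ⁅y, b⁆ ∈ M := by
      intro y hy b
      rw [← QuotientGroup.eq_one_iff]
      have h5 := Subgroup.mem_center_iff.1 (show (y : G ⧸ M) ∈ center (G ⧸ M) from hy) (b : G ⧸ M)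
      change ⁅(y : G ⧸ M), (b : G ⧸ M)⁆ = 1
      rw [commutatorElement_eq_one_iff_mul_comm, h5]
    have hYG' : commutator G ≤ Y := by
      intro x hx
      have h5 : commutator (G ⧸ M) = (commutator G).map f := by
        rw [commutator_def, commutator_def, Subgroup.map_commutator, Subgroup.map_top_of_surjective _ hfs]
      change f x ∈ center (G ⧸ M)
      apply (comm_facts hGb hcb).1
      rw [h5]
      exact ⟨x, hx, rfl⟩
    have hYZ : center G ≤ Y := by
      intro x hx
      change f x ∈ center (G ⧸ M)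
      rw [Subgroup.mem_center_iff]
      intro q
      obtain ⟨g, rfl⟩ := hfs q
      rw [← map_mul, ← map_mul, Subgroup.mem_center_iff.1 hx g]
    have hYidx : Y.index = (center (G ⧸ M)).index := Subgroup.index_comap_of_surjective _ hfs
    have hpY : ∀ g : G, g ^ p ∈ Y := by
      intro g
      change f (g ^ p) ∈ center (G ⧸ M)
      rw [map_pow]
      exact pow_center hGb hcb _
    have hpZ : ∀ y ∈ Y, y ^ p ∈ center G := fun y hy =>
      pow_mem_center fun b => ⟨hMZ (hYmod y hy b), pow_of_mem_card hMc (hYmod y hy b)⟩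
    -- index of the centre
    have hZidx : (center G).index ≤ p * Y.index := by
      set Zb := (center G).map f with hZb
      have h3 : Zb.index = (center G).index := by
        rw [hZb, Subgroup.index_map, hf, QuotientGroup.ker_mk', sup_eq_left.2 hMZ, MonoidHom.range_eq_top.2 hfs, Subgroup.index_top, mul_one]
      obtain ⟨⟨c, hcc⟩, hcg⟩ := hcyc.exists_generator
      obtain ⟨y, rfl⟩ := hfs c
      have h4 : zpowers (f y ^ p) ≤ Zb := by
        rw [zpowers_le, ← map_pow]
        exact ⟨y ^ p, hpZ y hcc, rfl⟩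
      have h5 : Nat.card (center (G ⧸ M)) = orderOf (f y) := by
        rw [← Subgroup.orderOf_mk (f y) hcc]
        exact (orderOf_eq_card_of_forall_mem_zpowers hcg).symm
      have h6 : orderOf (f y) ≤ p * Nat.card Zb := by
        have h7 : orderOf (f y) ∣ p * orderOf (f y ^ p) := by
          apply orderOf_dvd_of_pow_eq_one
          rw [pow_mul, pow_orderOf_eq_one]
        refine (Nat.le_of_dvd (Nat.mul_pos hp.out.pos (orderOf_pos _)) h7).trans ?_
        apply Nat.mul_le_mul_left
        rw [← Nat.card_zpowers]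
        exact Subgroup.card_le_of_le h4
      have h8 := Subgroup.card_mul_index Zb
      have h9 := Subgroup.card_mul_index (center (G ⧸ M))
      rw [← h3, hYidx]
      apply Nat.le_of_mul_le_mul_left _ (Nat.card_pos (α := Zb))
      rw [h8, ← h9, h5]
      calc orderOf (f y) * (center (G ⧸ M)).index ≤ p * Nat.card Zb * (center (G ⧸ M)).index := Nat.mul_le_mul_right _ h6
        _ = Nat.card Zb * (p * (center (G ⧸ M)).index) := by ring
    -- a character of the quotient
    obtain ⟨χ', hχ', hd'⟩ := exists_nonlinear habb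
    have hsq := sq_eq hGb hcb hχ' hd'
    rw [← hYidx] at hsq
    have hχ : IsIrrCharacter G (fun g : G => χ' g) := CfsgLib.Quot19.irr_inflate M hχ'
    have hdχ : charDegree (fun g : G => χ' g) = charDegree χ' := rfl
    have hχz : (fun g : G => χ' g) z = (fun g : G => χ' g) 1 := CfsgLib.Quot19.infl_ker M χ' z (mem_zpowers z)
    -- a character nontrivial on z
    have hnc : ¬ IsConj (1 : G) z := by
      rw [isConj_one_right]
      exact hz1
    rw [isConj_iff_irr] at hnc
    push Not at hnc
    obtain ⟨⟨ψ, hψ⟩, hψz⟩ := hnc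
    change ψ 1 ≠ ψ z at hψz
    have hdψ : charDegree ψ ≠ 1 := fun h => hψz (lin_ker hψ h hzG).symm
    have hne : charDegree ψ ≠ charDegree χ' := by
      intro h
      obtain ⟨k, -, hk⟩ := hGC ⟨_, hχ⟩ ⟨ψ, hψ⟩ hd' h.symm
      apply hψz
      have h3 : ψ z = (fun g : G => χ' g) (z ^ k) := hk z
      have h4 : ψ 1 = (fun g : G => χ' g) (1 ^ k) := hk 1
      rw [one_pow] at h4
      exact h4.trans (h3.trans (ker_pow hχ hχz k)).symm
    -- arithmetic
    obtain ⟨N, hN⟩ := IsPGroup.iff_card.1 hG
    have hψN := CfsgLib.CharInt2.charDegree_dvd_card hψ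
    have hχN := CfsgLib.CharInt2.charDegree_dvd_card hχ
    rw [hN] at hψN hχN
    obtain ⟨a, -, ha⟩ := (Nat.dvd_prime_pow hp.out).1 hψN
    obtain ⟨d, -, hd⟩ := (Nat.dvd_prime_pow hp.out).1 hχN
    rw [hdχ] at hd
    have hle : charDegree ψ ^ 2 ≤ p * charDegree χ' ^ 2 := by
      rw [hsq]
      exact (CfsgLib.TwoDeg19.sq_le_index hψ).trans hZidx
    have had : a < d := by
      rw [ha, hd, ← pow_mul, ← pow_mul, ← pow_succ'] at hle
      have h3 := (Nat.pow_le_pow_iff_right hp.out.one_lt).1 hle
      have h4 : a ≠ d := by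
        rintro rfl
        exact hne (by rw [ha, hd])
      omega
    have hpad : p * charDegree ψ ≤ charDegree χ' := by
      rw [ha, hd, ← pow_succ']
      exact Nat.pow_le_pow_right hp.out.pos had
    have hpsq : p ^ 2 * charDegree ψ ^ 2 ≤ Y.index := by
      rw [← hsq, ← mul_pow]
      exact Nat.pow_le_pow_left hpad 2
    have hψpos := charDegree_pos hψ
    -- Case I
    have hcaseI : ¬ ∀ g : G, g ^ p ∈ center G := by
      intro hall
      obtain ⟨V, hV, hVi⟩ := hGC.count hψ hdψ Y hYG' hYZ p hp.out.pos hall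
      have h3 := index_le_sq hψ V hV
      have h4 : p ^ 2 * charDegree ψ ^ 2 ≤ charDegree ψ ^ 2 * p := hpsq.trans (hVi.trans (Nat.mul_le_mul_right _ h3))
      have h5 : p * p ≤ p := by
        have h6 : 0 < charDegree ψ ^ 2 := pow_pos hψpos 2
        apply Nat.le_of_mul_le_mul_left _ h6
        calc charDegree ψ ^ 2 * (p * p) = p ^ 2 * charDegree ψ ^ 2 := by ring
          _ ≤ _ := h4
      have h6 := hp.out.two_le
      nlinarith
    -- Case II
    obtain ⟨V, hV, hVi⟩ := hGC.count hψ hdψ Y hYG' hYZ (p * p) (Nat.mul_pos hp.out.pos hp.out.pos) (fun g => by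
      rw [pow_mul]; exact hpZ _ (hpY g))
    have h3 : charDegree ψ ^ 2 ≤ V.index := by
      have h4 : p ^ 2 * charDegree ψ ^ 2 ≤ V.index * (p * p) := hpsq.trans hVi
      have h5 : 0 < p * p := Nat.mul_pos hp.out.pos hp.out.pos
      apply Nat.le_of_mul_le_mul_right _ h5
      calc charDegree ψ ^ 2 * (p * p) = p ^ 2 * charDegree ψ ^ 2 := by ring
        _ ≤ _ := h4
    have h4 := norm_eq hψ V hV h3
    have hfaith : ∀ g : G, ψ g = ψ 1 → g = 1 := by
      by_contra hcon
      push Not at hcon
      obtain ⟨x, hx, hx1⟩ := hcon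
      -- the kernel
      let K : Subgroup G :=
        { carrier := {g | ψ g = ψ 1}
          one_mem' := rfl
          mul_mem' := fun {a b} ha hb => by
            change ψ (a * b) = ψ 1
            rw [(char_mul_of_ker (irr_isCharacter hψ) ha b).1]; exact hb
          inv_mem' := fun {a} ha => by
            change ψ a⁻¹ = ψ 1
            have h5 := (char_mul_of_ker (irr_isCharacter hψ) ha a⁻¹).1
            rw [mul_inv_cancel] at h5
            exact h5.symm }
      haveI hKn : K.Normal := ⟨fun g hg y => by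
        change ψ (y * g * y⁻¹) = ψ 1
        rw [irr_classFun hψ]; exact hg⟩
      have hKG : K ≤ commutator G := fun g hg => hGC.ker_le hψ hdψ hg
      have hKM : ∀ g, g ∈ K → g ∈ M → g = 1 := by
        intro g hg hgM
        by_contra hg1
        have h5 := zpowers_eq hMc hgM hg1
        have h6 : z ∈ zpowers g := by rw [h5]; exact mem_zpowers z
        exact hψz (ker_zpowers hψ hg h6).symm
      have hKc : Nat.card K = p := by
        have h5 : Nat.card K ∣ p * p := by rw [hquo]; exact Subgroup.card_dvd_of_le hKG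
        rw [← pow_two] at h5
        obtain ⟨j, hj, hjK⟩ := (Nat.dvd_prime_pow hp.out).1 h5
        have hj0 : j ≠ 0 := by
          rintro rfl
          rw [pow_zero, Subgroup.card_eq_one] at hjK
          have : x ∈ K := hx
          rw [hjK, Subgroup.mem_bot] at this
          exact hx1 this
        have hj2 : j ≠ 2 := by
          rintro rfl
          have h6 : K = commutator G := Subgroup.eq_of_le_of_card_ge hKG (by rw [← hquo, hjK, pow_two])
          have h7 : z ∈ K := by rw [h6]; exact hzG
          exact hψz (show ψ z = ψ 1 from h7).symm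
        have : j = 1 := by omega
        rw [hjK, this, pow_one]
      apply hcaseI
      intro g
      apply pow_mem_center
      intro b
      have h5 := comm_mod hG M hMG (by rw [hMc, hquo]) (comm_mem g b)
      have h6 := comm_mod hG K hKG (by rw [hKc, hquo]) (comm_mem g b)
      refine ⟨?_, hKM _ h6.1 h5.1⟩
      rw [Subgroup.mem_center_iff]
      intro y
      have h7 := hKM _ (h6.2 y) (h5.2 y)
      rw [commutatorElement_eq_one_iff_mul_comm] at h7
      exact h7.symm
    have hVZ : V ≤ center G := by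
      intro s hs
      apply CfsgLib.DefB19.mem_center_of_norm (χ := ⟨ψ, hψ⟩) hfaith
      change ‖ψ s‖ = (ψ 1).re
      rw [h4 s hs, CfsgLib.CharInt.irr_one_eq_charDegree hψ, Complex.natCast_re]
    have h5 : (center G).index ≤ V.index := Nat.le_of_dvd (Nat.pos_of_ne_zero Subgroup.index_ne_zero_of_finite) (Subgroup.index_dvd_of_le hVZ)
    have h6 : Y.index ≤ (center G).index := Nat.le_of_dvd (Nat.pos_of_ne_zero Subgroup.index_ne_zero_of_finite) (Subgroup.index_dvd_of_le hYZ)
    have h7 := index_le_sq hψ V hV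
    have h8 : p ^ 2 * charDegree ψ ^ 2 ≤ charDegree ψ ^ 2 := hpsq.trans (h6.trans (h5.trans h7))
    have h9 : 0 < charDegree ψ ^ 2 := pow_pos hψpos 2
    have h10 : p ^ 2 ≤ 1 := by
      apply Nat.le_of_mul_le_mul_right _ h9
      rw [one_mul]; exact h8
    have h11 := hp.out.two_le
    nlinarith

theorem backward {G : Type u} [Group G] [Finite G] (hG : IsPGroup p G) (hab : ∃ a b : G, a * b ≠ b * a)
    (hZ : IsCyclic (center G)) (hc : Nat.card (commutator G) = p) : GC G := by
  classical
  have hGZ := (comm_facts hG hc).1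
  obtain ⟨z0, hz0⟩ := hZ.exists_generator
  have hord : orderOf z0 = Nat.card (center G) := orderOf_eq_card_of_forall_mem_zpowers hz0
  -- characters are faithful on the centre
  have hinj : ∀ χ : G → ℂ, IsIrrCharacter G χ → charDegree χ ≠ 1 → ∀ f : center G →* ℂˣ,
      (∀ (c : center G) (g : G), χ (c * g) = (f c : ℂ) * χ g) → orderOf (f z0) = Nat.card (center G) := by
    intro χ hχ hd f hf
    rw [← hord]
    apply orderOf_injective f _ z0
    rw [← MonoidHom.ker_eq_bot_iff]
    by_contra hker
    have h1 : p ∣ Nat.card f.ker := by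
      rcases ((hG.to_subgroup (center G)).to_subgroup f.ker).card_eq_or_dvd with h | h
      · exact absurd (Subgroup.card_eq_one.1 h) hker
      · exact h
    obtain ⟨⟨c, hck⟩, hco'⟩ := exists_prime_orderOf_dvd_card' p h1
    have hco : orderOf c = p := by rw [← hco']; exact (Subgroup.orderOf_mk _ _).symm
    -- c lies in G'
    have h2 : (c : G) ∈ commutator G := by
      by_contra hcn
      letI := Fintype.ofFinite (center G)
      have h3 := hZ.card_pow_eq_one_le (n := p) hp.out.pos
      have h4 : insert c (Finset.univ.filter (fun a : center G => (a : G) ∈ commutator G)) ⊆ Finset.univ.filter (fun a : center G => a ^ p = 1) := by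
        intro a ha
        rw [Finset.mem_insert, Finset.mem_filter] at ha
        rw [Finset.mem_filter]
        refine ⟨Finset.mem_univ _, ?_⟩
        rcases ha with rfl | ha
        · rw [← hco, pow_orderOf_eq_one]
        · exact Subtype.ext ((comm_facts hG hc).2 _ ha.2)
      have h5 := (Finset.card_le_card h4).trans h3
      rw [Finset.card_insert_of_notMem (by simp [hcn])] at h5
      have h6 : Nat.card (commutator G) ≤ (Finset.univ.filter (fun a : center G => (a : G) ∈ commutator G)).card := by
        rw [← Fintype.card_coe, ← Nat.card_eq_fintype_card]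
        apply Nat.card_le_card_of_injective (fun x : commutator G => (⟨⟨x, hGZ x.2⟩, by simp⟩ : {a // a ∈ Finset.univ.filter (fun a : center G => (a : G) ∈ commutator G)}))
        intro a b hab
        have h7 := congrArg (fun t : {a // a ∈ Finset.univ.filter (fun a : center G => (a : G) ∈ commutator G)} => ((t : center G) : G)) hab
        exact Subtype.ext h7
      rw [hc] at h6
      omega
    have h3 : χ c = χ 1 := by
      have h4 := hf c 1
      rw [MonoidHom.mem_ker.1 hck, Units.val_one, one_mul, mul_one] at h4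
      exact h4
    have h4 := faithful_on hc hχ hd h2 h3
    have h5 : c = 1 := Subtype.ext h4
    rw [h5, orderOf_one] at hco
    exact hp.out.one_lt.ne hco
  have hpZ : p ∣ Nat.card (center G) := by
    rw [← hc]; exact Subgroup.card_dvd_of_le hGZ
  intro χ ψ hdχ hdeq
  have hdψ : charDegree (ψ : G → ℂ) ≠ 1 := by rw [← hdeq]; exact hdχ
  obtain ⟨f, hf⟩ := central_lin χ.2
  obtain ⟨f', hf'⟩ := central_lin ψ.2
  have h1 := hinj _ χ.2 hdχ f hf
  have h2 := hinj _ ψ.2 hdψ f' hf'
  haveI : NeZero (Nat.card (center G)) := ⟨Nat.card_pos.ne'⟩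
  have hp1 : IsPrimitiveRoot (f z0) (Nat.card (center G)) := by rw [← h1]; exact IsPrimitiveRoot.orderOf _
  have hp2 : IsPrimitiveRoot (f' z0) (Nat.card (center G)) := by rw [← h2]; exact IsPrimitiveRoot.orderOf _
  obtain ⟨k, hk1, hk2, hk3'⟩ := ((IsPrimitiveRoot.coe_units_iff.2 hp1).isPrimitiveRoot_iff (ξ := (f' z0 : ℂ))).1 (IsPrimitiveRoot.coe_units_iff.2 hp2)
  have hk3 : f z0 ^ k = f' z0 := Units.ext (by rw [Units.val_pow_eq_pow_val]; exact hk3')
  obtain ⟨N, hN⟩ := IsPGroup.iff_card.1 hG
  have hkp : k.Coprime p := Nat.Coprime.coprime_dvd_right hpZ hk2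
  have hkG : k.Coprime (Nat.card G) := by rw [hN]; exact hkp.pow_right N
  refine ⟨k, hkG, fun g => ?_⟩
  by_cases hg : g ∈ center G
  · have h3 : ∀ c : center G, f' c = f c ^ k := by
      intro c
      obtain ⟨i, rfl⟩ := Subgroup.mem_zpowers_iff.1 (hz0 c)
      rw [map_zpow, map_zpow, ← hk3, ← zpow_natCast, ← zpow_natCast, ← zpow_mul, ← zpow_mul, mul_comm]
    have h4 := hf' ⟨g, hg⟩ 1
    have h5 := hf (⟨g, hg⟩ ^ k) 1
    rw [mul_one] at h4 h5
    rw [map_pow, ← h3] at h5
    change (ψ : G → ℂ) g = _ at h4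
    change (χ : G → ℂ) (g ^ k) = _ at h5
    rw [h4, h5, CfsgLib.CharInt.irr_one_eq_charDegree χ.2, CfsgLib.CharInt.irr_one_eq_charDegree ψ.2, hdeq]
  · rw [vanish hG hc ψ.2 hdψ hg, vanish hG hc χ.2 hdχ]
    intro h3
    apply hg
    have h4 : g ∈ zpowers (g ^ k) := by
      have h5 : (Nat.card G).Coprime k := hkG.symm
      have h7 : orderOf g ∣ Nat.card G := orderOf_dvd_natCard g
      have h8 : (orderOf g).Coprime k := Nat.Coprime.coprime_dvd_left h7 h5
      obtain ⟨j, hj⟩ := exists_pow_eq_self_of_coprime h8.symm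
      exact Subgroup.mem_zpowers_iff.2 ⟨j, by rw [zpow_natCast]; exact hj⟩
    exact (zpowers_le.2 h3) h4

theorem main {G : Type u} [Group G] [Finite G] (hG : IsPGroup p G) (hna : ¬ IsMulCommutative G) :
    GC G ↔ (IsCyclic (center G) ∧ Nat.card (commutator G) = p) := by
  have hab : ∃ a b : G, a * b ≠ b * a := by
    by_contra hcon
    push Not at hcon
    exact hna ⟨⟨hcon⟩⟩
  constructor
  · intro h
    have h1 := main_aux (p := p) _ rfl hG hab h
    exact ⟨cyclic_center h hab h1, h1⟩
  · rintro ⟨h1, h2⟩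
    exact backward hG hab h1 h2

end Main

end CfsgLib.GalDeg19
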