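import Cfsg.Agent.LibGfour1
import Cfsg.Agent.LibRcube1
import Cfsg.Agent.S1055
import Cfsg.Agent.S1059
import Cfsg.Agent.S1077
import Cfsg.Agent.S1078

/-!
The `6`-dimensional representation of `G₂(4)`.
-/

set_option autoImplicit false
set_option linter.all false
set_option maxRecDepth 100000

namespace CfsgLib.Gfour

open CfsgLib.TC CfsgLib.MC CfsgLib.F4c Cfsg.Lie

section rep

variable {F : Type*} [Field F] (σ : F ≃+* F4)

/-- generators -/
noncomputable def ff (p : Fin chevG2.nroots × F) : M6ˣ := gX ⟨p.1.1, p.1.2⟩ (σ p.2)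

noncomputable def lf : FreeGroup (Fin chevG2.nroots × F) →* M6ˣ := FreeGroup.lift (ff σ)

theorem lf_X (r : ℕ) (h : r < 12) (t : F) : lf σ (chevG2.stX r t) = gX ⟨r, h⟩ (σ t) := by
  have h' : r < chevG2.nroots := h
  unfold ChevalleyDatum.stX lf
  rw [dif_pos h', FreeGroup.lift_apply_of]
  rfl

noncomputable def mw (w : List (ℕ × F)) : List (ℕ × F4) := w.map fun p => (p.1, σ p.2)

theorem wC_cons (p : ℕ × F4) (w : List (ℕ × F4)) : wC (p :: w) = mC (mX p.1 (dc p.2)) (wC w) := rfl

theorem lf_word (w : List (ℕ × F)) (hw : ∀ p ∈ w, p.1 < 12) :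
    ((lf σ (chevG2.stWord w) : M6ˣ) : M6) = tM (wC (mw σ w)) := by
  induction w with
  | nil =>
    have h1 : chevG2.stWord ([] : List (ℕ × F)) = 1 := rfl
    rw [h1, map_one, Units.val_one]
    exact tM_one.symm
  | cons p w ih =>
    have h1 : chevG2.stWord (p :: w) = chevG2.stX p.1 p.2 * chevG2.stWord w := by
      unfold ChevalleyDatum.stWord
      rw [List.map_cons, List.prod_cons]
    have h2 : mw σ (p :: w) = (p.1, σ p.2) :: mw σ w := rfl
    rw [h1, map_mul, Units.val_mul, ih (fun q hq => hw q (List.mem_cons_of_mem _ hq)),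
      lf_X σ p.1 (hw p List.mem_cons_self) p.2, h2, wC_cons, tM_mul]
    rfl

theorem mw_comm (r s : ℕ) (t u : F) : mw σ (chevG2.commWord F r s t u) = chevG2.commWord F4 r s (σ t) (σ u) := by
  unfold mw ChevalleyDatum.commWord
  rw [List.map_map]
  apply List.map_congr_left
  intro c _
  simp

theorem mw_h (r : ℕ) (t : F) : mw σ (chevG2.hWord r t) = chevG2.hWord r (σ t) := by
  unfold mw ChevalleyDatum.hWord ChevalleyDatum.nWord
  simp

theorem mw_append (w v : List (ℕ × F)) : mw σ (w ++ v) = mw σ w ++ mw σ v := by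
  unfold mw; simp

theorem hw_lt (r : ℕ) (h : r < 12) (t : F) : ∀ p ∈ chevG2.hWord r t, p.1 < 12 := by
  have h2 := negw ⟨r, h⟩
  intro p hp
  unfold ChevalleyDatum.hWord ChevalleyDatum.nWord at hp
  simp only [List.cons_append, List.nil_append, List.mem_cons, List.not_mem_nil, or_false] at hp
  rcases hp with rfl | rfl | rfl | rfl | rfl | rfl <;> first | exact h | exact h2

theorem stWord_append (w v : List (ℕ × F)) :
    chevG2.stWord (w ++ v) = chevG2.stWord w * chevG2.stWord v := by
  unfold ChevalleyDatum.stWord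
  rw [List.map_append, List.prod_append]

theorem rels : ∀ g ∈ chevG2.steinbergRels F, lf σ g = 1 := by
  rintro g ((⟨r, t, u, hr, rfl⟩ | ⟨r, s, t, u, hr, hs, h1, h2, rfl⟩) | ⟨r, t, u, hr, ht, hu, rfl⟩)
  · have hr' : r < 12 := hr
    rw [map_mul, map_mul, map_inv, mul_inv_eq_one, lf_X σ r hr', lf_X σ r hr', lf_X σ r hr', map_add]
    apply Units.ext
    change tM _ * tM _ = tM _
    rw [← tM_mul]
    exact congrArg tM (Nat.eq_of_beq_eq_true (r1 ⟨r, hr'⟩ (σ t) (σ u)))
  · have hr' : r < 12 := hr
    have hs' : s < 12 := hs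
    have key : lf σ (chevG2.stWord [(s, u), (r, t)]) =
        lf σ (chevG2.stWord ((r, t) :: (s, u) :: chevG2.commWord F r s t u)) := by
      apply Units.ext
      rw [lf_word, lf_word]
      · have h3 : mw σ [(s, u), (r, t)] = [(s, σ u), (r, σ t)] := rfl
        have h4 : mw σ ((r, t) :: (s, u) :: chevG2.commWord F r s t u) =
            (r, σ t) :: (s, σ u) :: chevG2.commWord F4 r s (σ t) (σ u) := by
          rw [← mw_comm]; rfl
        rw [h3, h4]
        exact congrArg tM (Nat.eq_of_beq_eq_true (r2 ⟨r, hr'⟩ ⟨s, hs'⟩ (σ t) (σ u) h1 h2))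
      · intro p hp
        rcases List.mem_cons.1 hp with rfl | hp
        · exact hr'
        · rcases List.mem_cons.1 hp with rfl | hp
          · exact hs'
          · unfold ChevalleyDatum.commWord at hp
            obtain ⟨c, hc, rfl⟩ := List.mem_map.1 hp
            exact r2w ⟨r, hr'⟩ ⟨s, hs'⟩ c hc
      · intro p hp
        rcases List.mem_cons.1 hp with rfl | hp
        · exact hs'
        · rcases List.mem_cons.1 hp with rfl | hp
          · exact hr'
          · simp at hp
    have e1 : chevG2.stWord [(s, u), (r, t)] = chevG2.stX s u * chevG2.stX r t := by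
      unfold ChevalleyDatum.stWord; simp
    have e2 : chevG2.stWord ((r, t) :: (s, u) :: chevG2.commWord F r s t u) =
        chevG2.stX r t * chevG2.stX s u * chevG2.stWord (chevG2.commWord F r s t u) := by
      unfold ChevalleyDatum.stWord
      rw [List.map_cons, List.map_cons, List.prod_cons, List.prod_cons, mul_assoc]
    rw [e1, e2] at key
    simp only [map_mul, map_inv] at key ⊢
    rw [mul_inv_eq_one]
    calc (lf σ (chevG2.stX s u))⁻¹ * (lf σ (chevG2.stX r t))⁻¹ * lf σ (chevG2.stX s u) * lf σ (chevG2.stX r t)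
        = (lf σ (chevG2.stX s u))⁻¹ * (lf σ (chevG2.stX r t))⁻¹ * (lf σ (chevG2.stX s u) * lf σ (chevG2.stX r t)) := by
          group
      _ = _ := by rw [key]; group
  · have hr' : r < 12 := hr
    rw [map_mul, map_mul, map_inv, mul_inv_eq_one]
    unfold ChevalleyDatum.stH
    rw [← map_mul, ← stWord_append]
    apply Units.ext
    rw [lf_word, lf_word, mw_append, mw_h, mw_h, mw_h, map_mul]
    · exact congrArg tM (Nat.eq_of_beq_eq_true (r3 ⟨r, hr'⟩ (σ t) (σ u)
        ((map_ne_zero_iff σ σ.injective).2 ht) ((map_ne_zero_iff σ σ.injective).2 hu)))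
    · exact hw_lt r hr' _
    · intro p hp
      rcases List.mem_append.1 hp with hp | hp
      · exact hw_lt r hr' _ p hp
      · exact hw_lt r hr' _ p hp

noncomputable def rho : chevG2.SteinbergGroup F →* M6ˣ := PresentedGroup.toGroup (f := ff σ) (rels σ)

theorem rho_mk (x : FreeGroup (Fin chevG2.nroots × F)) :
    rho σ (PresentedGroup.mk (chevG2.steinbergRels F) x) = lf σ x := rfl

include σ in
theorem exists_rep : ∃ ρ : ↥(chevG2.group F) →* M6ˣ, Function.Injective ρ ∧
    ∀ w : List (Fin 12 × F4), ∃ g : ↥(chevG2.group F), ((ρ g : M6ˣ) : M6) = tM (wC (w.map fun p => (p.1.1, p.2))) := by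
  obtain ⟨θ, hs, hk, -⟩ := Cfsg.Agent.S1077.result (K := F) chevG2 (by simp)
  have hc := Cfsg.Agent.S1078.result (K := F) chevG2 (by simp)
  rw [hc] at hk
  have hi : Function.Injective θ := (MonoidHom.ker_eq_bot_iff θ).1 hk
  let e : chevG2.SteinbergGroup F ≃* ↥(chevG2.group F) := MulEquiv.ofBijective θ ⟨hi, hs⟩
  let ρ : ↥(chevG2.group F) →* M6ˣ := (rho σ).comp e.symm.toMonoidHom
  have hw : ∀ w : List (Fin 12 × F4), ∃ g : ↥(chevG2.group F),
      ((ρ g : M6ˣ) : M6) = tM (wC (w.map fun p => (p.1.1, p.2))) := by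
    intro w
    refine ⟨e (PresentedGroup.mk (chevG2.steinbergRels F)
      (chevG2.stWord (w.map fun p => (p.1.1, σ.symm p.2)))), ?_⟩
    have h1 : ρ (e (PresentedGroup.mk (chevG2.steinbergRels F)
      (chevG2.stWord (w.map fun p => (p.1.1, σ.symm p.2))))) =
      lf σ (chevG2.stWord (w.map fun p => (p.1.1, σ.symm p.2))) := by
      change rho σ (e.symm (e _)) = _
      rw [MulEquiv.symm_apply_apply, rho_mk]
    rw [h1, lf_word]
    · congr 2
      unfold mw
      rw [List.map_map]
      apply List.map_congr_left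
      intro p _
      simp
    · intro p hp
      obtain ⟨q, _, rfl⟩ := List.mem_map.1 hp
      exact q.1.2
  refine ⟨ρ, ?_, hw⟩
  have hsimp : IsSimpleGroup ↥(chevG2.group F) := by
    apply (Cfsg.Agent.S1055.result (F := F) ?_).1
    refine ⟨σ.symm F4.w, ?_, ?_⟩
    · intro h
      have h2 : F4.w = 0 := by rw [← σ.apply_symm_apply F4.w, h, map_zero]
      exact absurd h2 (by decide)
    · intro h
      have h2 : F4.w = 1 := by rw [← σ.apply_symm_apply F4.w, h, map_one]
      exact absurd h2 (by decide)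
  rcases hsimp.eq_bot_or_eq_top_of_normal ρ.ker inferInstance with h | h
  · exact (MonoidHom.ker_eq_bot_iff ρ).1 h
  · exfalso
    obtain ⟨g, hg⟩ := hw [(0, 1)]
    have h1 : ρ g = 1 := by
      have : g ∈ ρ.ker := by rw [h]; trivial
      exact this
    rw [h1, Units.val_one] at hg
    have h2 := congrFun (congrFun hg 0) 4
    revert h2
    decide +kernel

end rep

end CfsgLib.Gfour
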