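import Cfsg.Agent.LibGfour2

/-!
Groups with the prime graph of `G₂(4)`.
-/

set_option autoImplicit false
set_option linter.all false
set_option maxRecDepth 100000

namespace CfsgLib.Gfour

open CfsgLib.TC CfsgLib.MC CfsgLib.F4c Cfsg.Lie CfsgLib.Rcube

/-! ### generic facts -/

section gen

open Subgroup

variable {G : Type*} [Group G] [Finite G]

/-- elements of order `p` when `p² ∤ |G|` -/
theorem conj_pow {p : ℕ} [hp : Fact p.Prime] (hG : ¬ p ^ 2 ∣ Nat.card G) {g h : G}
    (hg : orderOf g = p) (hh : orderOf h = p) : ∃ t : G, t * h * t⁻¹ ∈ zpowers g := by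
  have hcard : ∀ k : G, orderOf k = p → Nat.card (zpowers k) = p ^ (Nat.card G).factorization p := by
    intro k hk
    have h1 : p ∣ Nat.card G := hk ▸ orderOf_dvd_natCard k
    have h2 : (Nat.card G).factorization p = 1 := by
      apply le_antisymm
      · by_contra hlt
        apply hG
        exact (hp.out.pow_dvd_iff_le_factorization Nat.card_pos.ne').2 (by omega)
      · exact (hp.out.dvd_iff_one_le_factorization Nat.card_pos.ne').1 h1
    rw [Nat.card_zpowers, hk, h2, pow_one]
  let P : Sylow p G := Sylow.ofCard (zpowers g) (hcard g hg)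
  let Q : Sylow p G := Sylow.ofCard (zpowers h) (hcard h hh)
  obtain ⟨t, ht⟩ := MulAction.exists_smul_eq G Q P
  refine ⟨t, ?_⟩
  have h1 : t * h * t⁻¹ ∈ (P : Subgroup G) := by
    rw [← ht]
    exact Subgroup.smul_mem_pointwise_smul h (MulAut.conj t) (Q : Subgroup G) (mem_zpowers h)
  exact h1

end gen

/-! ### the module -/

abbrev Xk (k : ℕ) := Multiplicative (Fin k → Fin 6 → F4)

noncomputable def actE (k : ℕ) (u : M6ˣ) : Xk k ≃* Xk k :=
  AddEquiv.toMultiplicative
    { toFun := fun v i => (u : M6).mulVec (v i)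
      invFun := fun v i => ((u⁻¹ : M6ˣ) : M6).mulVec (v i)
      left_inv := fun v => by
        funext i
        change ((u⁻¹ : M6ˣ) : M6).mulVec ((u : M6).mulVec (v i)) = v i
        rw [Matrix.mulVec_mulVec, Units.inv_mul, Matrix.one_mulVec]
      right_inv := fun v => by
        funext i
        change (u : M6).mulVec (((u⁻¹ : M6ˣ) : M6).mulVec (v i)) = v i
        rw [Matrix.mulVec_mulVec, Units.mul_inv, Matrix.one_mulVec]
      map_add' := fun v w => by
        funext i
        exact Matrix.mulVec_add _ _ _ }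

theorem actE_apply (k : ℕ) (u : M6ˣ) (v : Xk k) (i : Fin k) :
    Multiplicative.toAdd (actE k u v) i = (u : M6).mulVec (Multiplicative.toAdd v i) := rfl

theorem xk_ext {k : ℕ} {v w : Xk k}
    (h : ∀ i, Multiplicative.toAdd v i = Multiplicative.toAdd w i) : v = w :=
  Multiplicative.toAdd.injective (funext h)

noncomputable def ψ (k : ℕ) : M6ˣ →* MulAut (Xk k) :=
  MonoidHom.mk' (fun u => actE k u) (by
    intro u w
    ext1 v
    apply xk_ext
    intro i
    change ((u * w : M6ˣ) : M6).mulVec _ = (u : M6).mulVec ((w : M6).mulVec _)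
    rw [Matrix.mulVec_mulVec, Units.val_mul])

theorem ψ_apply (k : ℕ) (u : M6ˣ) (v : Xk k) (i : Fin k) :
    Multiplicative.toAdd (ψ k u v) i = (u : M6).mulVec (Multiplicative.toAdd v i) := rfl

theorem ψ_inj (k : ℕ) (hk : k ≠ 0) : Function.Injective (ψ k) := by
  intro u w h
  apply Units.ext
  apply Matrix.mulVec_injective
  funext x
  have h1 := congrArg (fun f : MulAut (Xk k) => Multiplicative.toAdd (f (Multiplicative.ofAdd fun _ => x))) h
  exact congrFun h1 ⟨0, Nat.pos_of_ne_zero hk⟩

theorem xk_sq {k : ℕ} (v : Xk k) : v ^ 2 = 1 := by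
  apply xk_ext
  intro i
  funext j
  rw [pow_two]
  change Multiplicative.toAdd v i j + Multiplicative.toAdd v i j = 0
  generalize Multiplicative.toAdd v i j = a
  revert a
  decide

theorem card_Xk (k : ℕ) : Nat.card (Xk k) = 4096 ^ k := by
  have h0 : Nat.card (Xk k) = Nat.card (Fin k → Fin 6 → F4) := rfl
  rw [h0, Nat.card_eq_fintype_card, Fintype.card_pi, Finset.prod_const, Finset.card_univ, Fintype.card_fin, Fintype.card_pi, Finset.prod_const,
    Finset.card_univ, Fintype.card_fin, F4.card]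
  norm_num

/-! ### special elements -/

noncomputable def pC (a : ℕ) (n : ℕ) : ℕ := Nat.rec (motive := fun _ => ℕ) oneC (fun _ ih => mC ih a) n

theorem tM_pow (a n : ℕ) : tM (pC a n) = tM a ^ n := by
  induction n with
  | zero => rw [pow_zero]; exact tM_one
  | succ n ih => rw [pow_succ, ← ih, ← tM_mul]; rfl

noncomputable def m6 : ℕ := nat_lit 0x4000c02400cc264401
noncomputable def m7 : ℕ := nat_lit 0x7801c02241dcc47401
noncomputable def m10 : ℕ := nat_lit 0x500e001502b001503e
noncomputable def m13 : ℕ := nat_lit 0x5002a03006da130c01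
noncomputable def d7 : ℕ := nat_lit 0x19002000d0c20309
noncomputable def d13 : ℕ := nat_lit 0x2400c40740ac4a75

noncomputable def w6 : List (Fin 12 × F4) := [(6, .v), (5, .w), (2, .o)]
noncomputable def w7 : List (Fin 12 × F4) := [(7, .v), (6, .v), (2, .o)]
noncomputable def w10 : List (Fin 12 × F4) := [(4, .v), (5, .o), (7, .o)]
noncomputable def w13 : List (Fin 12 × F4) := [(5, .v), (6, .w), (7, .o), (2, .w)]

theorem w6_chk : Nat.beq (wC (w6.map fun p => (p.1.1, p.2))) m6 = true := by decide +kernel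
theorem w7_chk : Nat.beq (wC (w7.map fun p => (p.1.1, p.2))) m7 = true := by decide +kernel
theorem w10_chk : Nat.beq (wC (w10.map fun p => (p.1.1, p.2))) m10 = true := by decide +kernel
theorem w13_chk : Nat.beq (wC (w13.map fun p => (p.1.1, p.2))) m13 = true := by decide +kernel

theorem p6_chk : Nat.beq (pC m6 6) oneC = true := by decide +kernel
theorem p7_chk : Nat.beq (pC m7 7) oneC = true := by decide +kernel
theorem p10_chk : Nat.beq (pC m10 10) oneC = true := by decide +kernel
theorem p13_chk : Nat.beq (pC m13 13) oneC = true := by decide +kernel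

theorem n6_2 : tM (pC m6 2) ≠ 1 := by decide +kernel
theorem n6_3 : tM (pC m6 3) ≠ 1 := by decide +kernel
theorem n10_2 : tM (pC m10 2) ≠ 1 := by decide +kernel
theorem n10_5 : tM (pC m10 5) ≠ 1 := by decide +kernel
theorem n7_1 : tM (pC m7 1) ≠ 1 := by decide +kernel
theorem n13_1 : tM (pC m13 1) ≠ 1 := by decide +kernel

theorem i7_chk : tM (mC d7 m7) = tM d7 + 1 := by decide +kernel
theorem i13_chk : tM (mC d13 m13) = tM d13 + 1 := by decide +kernel

theorem nofix_aux {m d : ℕ} (h : tM (mC d m) = tM d + 1) (v : Fin 6 → F4)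
    (hv : (tM m).mulVec v = v) : v = 0 := by
  have h1 : tM d * tM m = tM d + 1 := by
    rw [← tM_mul]
    exact h
  have h2 : (tM d).mulVec v = (tM d).mulVec v + v := by
    calc (tM d).mulVec v = (tM d).mulVec ((tM m).mulVec v) := by rw [hv]
      _ = (tM d + 1).mulVec v := by rw [Matrix.mulVec_mulVec, h1]
      _ = _ := by rw [Matrix.add_mulVec, Matrix.one_mulVec]
  exact (left_eq_add.1 h2)

/-! ### main -/

section main

variable {F : Type*} [Field F] [Fintype F]

theorem card_L (hF : Fintype.card F = 4) : Nat.card ↥(chevG2.group F) = 251596800 := by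
  rw [Cfsg.Agent.S1059.result hF]
  norm_num

theorem ord_of {G : Type*} [Group G] (ρ : G →* M6ˣ) (hρ : Function.Injective ρ) {g : G} {m : ℕ}
    (hg : ((ρ g : M6ˣ) : M6) = tM m) (n : ℕ) : g ^ n = 1 ↔ tM (pC m n) = 1 := by
  rw [tM_pow, ← hg, ← Units.val_pow_eq_pow_val, ← map_pow]
  constructor
  · intro h; rw [h, map_one, Units.val_one]
  · intro h
    have h1 : ρ (g ^ n) = 1 := Units.ext h
    exact hρ (h1.trans (map_one ρ).symm)

theorem order_two_mul {G : Type*} [Group G] {g : G} {p : ℕ} (hp : p.Prime) (h1 : g ^ (2 * p) = 1) (h2 : g ^ 2 ≠ 1)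
    (h3 : g ^ p ≠ 1) : orderOf g = 2 * p := by
  have hd : orderOf g ∣ 2 * p := orderOf_dvd_of_pow_eq_one h1
  have hn2 : ¬ orderOf g ∣ 2 := fun h => h2 (orderOf_dvd_iff_pow_eq_one.1 h)
  have hnp : ¬ orderOf g ∣ p := fun h => h3 (orderOf_dvd_iff_pow_eq_one.1 h)
  obtain ⟨c, hc⟩ := hd
  by_cases h : p ∣ orderOf g
  · obtain ⟨k, hk⟩ := h
    have h4 : 2 * p = p * (k * c) := by rw [hc, hk]; ring
    have h5 : k * c = 2 := by
      have h6 : p * 2 = p * (k * c) := by rw [← h4]; ring
      exact (Nat.eq_of_mul_eq_mul_left hp.pos h6).symm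
    have h6 : k = 1 ∨ k = 2 := (Nat.dvd_prime Nat.prime_two).1 ⟨c, h5.symm⟩
    rcases h6 with rfl | rfl
    · exact absurd (by rw [hk, mul_one]) hnp
    · rw [hk]; ring
  · exfalso
    have hcop : Nat.Coprime (orderOf g) p := (Nat.Prime.coprime_iff_not_dvd hp).2 h |>.symm
    exact hn2 (hcop.dvd_of_dvd_mul_right ⟨c, hc⟩)

theorem exists_conj_fix {G : Type*} [Group G] [Finite G] (ρ : G →* M6ˣ) {p : ℕ} (hp : p.Prime)
    (hG : ¬ p ^ 2 ∣ Nat.card G) {g x : G} (hg : orderOf g = p) (hx : orderOf x = p)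
    (hf : ∀ v : Fin 6 → F4, ((ρ g : M6ˣ) : M6).mulVec v = v → v = 0) (v : Fin 6 → F4)
    (hv : ((ρ x : M6ˣ) : M6).mulVec v = v) : v = 0 := by
  haveI : Fact p.Prime := ⟨hp⟩
  obtain ⟨t, ht⟩ := conj_pow hG hx hg
  -- the stabiliser of `v`
  have hst : ∀ y ∈ Subgroup.zpowers x, ((ρ y : M6ˣ) : M6).mulVec v = v := by
    let S : Subgroup G :=
      { carrier := {y | ((ρ y : M6ˣ) : M6).mulVec v = v}
        one_mem' := by
          change ((ρ 1 : M6ˣ) : M6).mulVec v = v
          rw [map_one, Units.val_one, Matrix.one_mulVec]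
        mul_mem' := by
          intro a b ha hb
          change ((ρ (a * b) : M6ˣ) : M6).mulVec v = v
          rw [map_mul, Units.val_mul, ← Matrix.mulVec_mulVec, show ((ρ b : M6ˣ) : M6).mulVec v = v from hb]
          exact ha
        inv_mem' := by
          intro a ha
          change ((ρ a⁻¹ : M6ˣ) : M6).mulVec v = v
          have ha' : ((ρ a : M6ˣ) : M6).mulVec v = v := ha
          rw [map_inv]
          conv_lhs => rw [← ha']
          rw [Matrix.mulVec_mulVec, Units.inv_mul, Matrix.one_mulVec] }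
    intro y hy
    have : y ∈ S := (Subgroup.zpowers_le.2 (show x ∈ S from hv)) hy
    exact this
  have h1 := hst _ ht
  rw [map_mul, map_mul, Units.val_mul, Units.val_mul, ← Matrix.mulVec_mulVec, ← Matrix.mulVec_mulVec] at h1
  have h2 : ((ρ g : M6ˣ) : M6).mulVec (((ρ t⁻¹ : M6ˣ) : M6).mulVec v) = ((ρ t⁻¹ : M6ˣ) : M6).mulVec v := by
    conv_rhs => rw [← h1]
    rw [Matrix.mulVec_mulVec _ ((ρ t⁻¹ : M6ˣ) : M6), ← Units.val_mul, ← map_mul, inv_mul_cancel, map_one,
      Units.val_one, Matrix.one_mulVec]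
  have h3 := hf _ h2
  have h4 : ((ρ t : M6ˣ) : M6).mulVec (((ρ t⁻¹ : M6ˣ) : M6).mulVec v) = v := by
    rw [Matrix.mulVec_mulVec, ← Units.val_mul, ← map_mul, mul_inv_cancel, map_one, Units.val_one, Matrix.one_mulVec]
  rw [h3, Matrix.mulVec_zero] at h4
  exact h4.symm

theorem main (hF : Fintype.card F = 4) (N : ℕ) :
    ∃ (H : Type) (_ : Group H) (_ : Finite H), N < Nat.card H ∧
      ((∀ p : ℕ, p.Prime → (p ∣ Nat.card ↥(chevG2.group F) ↔ p ∣ Nat.card H)) ∧
      (∀ p q : ℕ, p.Prime → q.Prime → p ≠ q → ((∃ g : ↥(chevG2.group F), orderOf g = p * q) ↔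
        (∃ g : H, orderOf g = p * q)))) := by
  obtain ⟨σ⟩ : Nonempty (F ≃+* F4) := by
    classical
    exact ⟨FiniteField.ringEquivOfCardEq (by rw [hF, F4.card])⟩
  obtain ⟨ρ, hρ, hw⟩ := exists_rep σ
  haveI : Finite ↥(chevG2.group F) := Nat.finite_of_card_ne_zero (by rw [card_L hF]; norm_num)
  have hL := card_L hF
  set L := ↥(chevG2.group F) with hLdef
  let φ : L →* MulAut (Xk (N + 1)) := (ψ (N + 1)).comp ρ
  have hφ : Function.Injective φ := (ψ_inj (N + 1) (Nat.succ_ne_zero N)).comp hρ
  let e : L ≃* φ.range := MonoidHom.ofInjective hφ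
  have hcr : Nat.card φ.range = 251596800 := by rw [← Nat.card_congr e.toEquiv, hL]
  -- special elements
  obtain ⟨g6, hg6⟩ := hw w6
  obtain ⟨g7, hg7⟩ := hw w7
  obtain ⟨g10, hg10⟩ := hw w10
  obtain ⟨g13, hg13⟩ := hw w13
  rw [Nat.eq_of_beq_eq_true w6_chk] at hg6
  rw [Nat.eq_of_beq_eq_true w7_chk] at hg7
  rw [Nat.eq_of_beq_eq_true w10_chk] at hg10
  rw [Nat.eq_of_beq_eq_true w13_chk] at hg13
  have o6 : orderOf g6 = 2 * 3 := order_two_mul Nat.prime_three
    ((ord_of ρ hρ hg6 _).2 (by rw [show 2 * 3 = 6 from rfl, Nat.eq_of_beq_eq_true p6_chk, tM_one]))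
    (fun h => n6_2 ((ord_of ρ hρ hg6 _).1 h)) (fun h => n6_3 ((ord_of ρ hρ hg6 _).1 h))
  have o10 : orderOf g10 = 2 * 5 := order_two_mul Nat.prime_five
    ((ord_of ρ hρ hg10 _).2 (by rw [show 2 * 5 = 10 from rfl, Nat.eq_of_beq_eq_true p10_chk, tM_one]))
    (fun h => n10_2 ((ord_of ρ hρ hg10 _).1 h)) (fun h => n10_5 ((ord_of ρ hρ hg10 _).1 h))
  have o7 : orderOf g7 = 7 := by
    haveI : Fact (Nat.Prime 7) := ⟨by norm_num⟩
    apply orderOf_eq_prime
    · exact (ord_of ρ hρ hg7 _).2 (by rw [Nat.eq_of_beq_eq_true p7_chk, tM_one])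
    · intro h
      exact n7_1 ((ord_of ρ hρ hg7 _).1 (by rw [h, one_pow]))
  have o13 : orderOf g13 = 13 := by
    haveI : Fact (Nat.Prime 13) := ⟨by norm_num⟩
    apply orderOf_eq_prime
    · exact (ord_of ρ hρ hg13 _).2 (by rw [Nat.eq_of_beq_eq_true p13_chk, tM_one])
    · intro h
      exact n13_1 ((ord_of ρ hρ hg13 _).1 (by rw [h, one_pow]))
  have hfix : ∀ (p : ℕ), p = 7 ∨ p = 13 → ∀ l : L, orderOf l = p → ∀ v : Xk (N + 1), φ l v = v → v = 1 := by
    intro p hp l hl v hv
    apply xk_ext
    intro i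
    have hvi : ((ρ l : M6ˣ) : M6).mulVec (Multiplicative.toAdd v i) = Multiplicative.toAdd v i :=
      congrFun (congrArg Multiplicative.toAdd hv) i
    change Multiplicative.toAdd v i = 0
    rcases hp with rfl | rfl
    · refine exists_conj_fix ρ (by norm_num) (by rw [hL]; norm_num) o7 hl ?_ _ hvi
      intro w hww
      rw [hg7] at hww
      exact nofix_aux i7_chk w hww
    · refine exists_conj_fix ρ (by norm_num) (by rw [hL]; norm_num) o13 hl ?_ _ hvi
      intro w hww
      rw [hg13] at hww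
      exact nofix_aux i13_chk w hww
  have hcard : Nat.card (SDL (Xk (N + 1)) φ.range) = 4096 ^ (N + 1) * 251596800 := by
    rw [SemidirectProduct.card, card_Xk, hcr]
  refine ⟨SDL (Xk (N + 1)) φ.range, inferInstance, ?_, ?_, ?_, ?_⟩
  · exact Nat.finite_of_card_ne_zero (by rw [hcard]; positivity)
  · rw [hcard]
    have h1 : N + 1 < 4096 ^ (N + 1) := Nat.lt_pow_self (by norm_num)
    calc N < 4096 ^ (N + 1) := by omega
      _ ≤ 4096 ^ (N + 1) * 251596800 := Nat.le_mul_of_pos_right _ (by norm_num)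
  · intro p hp
    rw [hcard, hL]
    constructor
    · intro h; exact Dvd.dvd.mul_left h _
    · intro h
      rcases (Nat.Prime.dvd_mul hp).1 h with h | h
      · have h2 := hp.dvd_of_dvd_pow h
        exact h2.trans ⟨61425, by norm_num⟩
      · exact h
  · -- the case `p = 2`
    have key2 : ∀ q : ℕ, q.Prime → q ≠ 2 → ∀ x : SDL (Xk (N + 1)) φ.range, orderOf x = 2 * q →
        ∃ g : L, orderOf g = 2 * q := by
      intro q hq hq2 x hx
      obtain ⟨l, hl⟩ := x.right.2
      have hol : orderOf l = orderOf x.right := by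
        rw [← orderOf_injective φ hφ, hl, Subgroup.orderOf_coe]
      have h1 : (x.right : MulAut (Xk (N + 1))) ^ orderOf l = 1 := by
        rw [hol, ← Subgroup.orderOf_coe, pow_orderOf_eq_one]
      have h2 : x ^ (orderOf l * 2) = 1 := pow_one_of_exp x h1 xk_sq
      have h3 : 2 * q ∣ orderOf l * 2 := hx ▸ orderOf_dvd_of_pow_eq_one h2
      have h4 : q ∣ orderOf l := by
        rw [mul_comm (orderOf l)] at h3
        exact Nat.dvd_of_mul_dvd_mul_left (by norm_num) h3
      have h5 : orderOf l ∣ 2 * q := by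
        apply orderOf_dvd_of_pow_eq_one
        apply hφ
        rw [map_pow, map_one, hl]
        have h6 : x.right ^ (2 * q) = 1 := by
          rw [← pow_right, ← hx, pow_orderOf_eq_one]; rfl
        exact congrArg Subtype.val h6
      obtain ⟨k, hk⟩ := h4
      have hk2 : k ∣ 2 := by
        rw [hk, mul_comm 2 q] at h5
        exact Nat.dvd_of_mul_dvd_mul_left hq.pos h5
      rcases (Nat.dvd_prime Nat.prime_two).1 hk2 with rfl | rfl
      · rw [mul_one] at hk
        -- `l` has order `q`
        have hqL : q ∣ 251596800 := by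
          have := orderOf_dvd_natCard l
          rwa [hk, hL] at this
        have hqc : q = 2 ∨ q = 3 ∨ q = 5 ∨ q = 7 ∨ q = 13 := by
          have h7 : (251596800 : ℕ) = 2 ^ 12 * (3 ^ 3 * (5 ^ 2 * (7 * 13))) := by norm_num
          rw [h7] at hqL
          rcases (Nat.Prime.dvd_mul hq).1 hqL with h | h
          · left; exact (Nat.prime_dvd_prime_iff_eq hq Nat.prime_two).1 (hq.dvd_of_dvd_pow h)
          rcases (Nat.Prime.dvd_mul hq).1 h with h | h
          · right; left; exact (Nat.prime_dvd_prime_iff_eq hq Nat.prime_three).1 (hq.dvd_of_dvd_pow h)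
          rcases (Nat.Prime.dvd_mul hq).1 h with h | h
          · right; right; left; exact (Nat.prime_dvd_prime_iff_eq hq Nat.prime_five).1 (hq.dvd_of_dvd_pow h)
          rcases (Nat.Prime.dvd_mul hq).1 h with h | h
          · right; right; right; left; exact (Nat.prime_dvd_prime_iff_eq hq (by norm_num)).1 h
          · right; right; right; right; exact (Nat.prime_dvd_prime_iff_eq hq (by norm_num)).1 h
        have hno : ∀ r : ℕ, q = r → (r = 7 ∨ r = 13) → False := by
          intro r hr hr2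
          have h8 : x ^ q = 1 := by
            apply pow_one_of_nofix
            · rw [← hk]; exact h1
            · intro w hw2
              exact hfix q (by rw [hr]; exact hr2) l hk w (by rw [hl]; exact hw2)
          have h9 : 2 * q ∣ q := hx ▸ orderOf_dvd_of_pow_eq_one h8
          have := Nat.le_of_dvd hq.pos h9
          have := hq.pos
          omega
        rcases hqc with rfl | rfl | rfl | rfl | rfl
        · exact absurd rfl hq2
        · exact ⟨g6, o6⟩
        · exact ⟨g10, o10⟩
        · exact (hno 7 rfl (Or.inl rfl)).elim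
        · exact (hno 13 rfl (Or.inr rfl)).elim
      · exact ⟨l, by rw [hk, mul_comm]⟩
    intro p q hp hq hpq
    constructor
    · rintro ⟨g, hg⟩
      refine ⟨SemidirectProduct.inr (e g), ?_⟩
      rw [orderOf_injective SemidirectProduct.inr SemidirectProduct.inr_injective, MulEquiv.orderOf_eq, hg]
    · rintro ⟨x, hx⟩
      by_cases hp2 : p = 2
      · subst hp2
        exact key2 q hq hpq.symm x hx
      by_cases hq2 : q = 2
      · subst hq2
        rw [mul_comm p 2] at hx ⊢
        exact key2 p hp hpq x hx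
      · obtain ⟨l, hl⟩ := x.right.2
        refine ⟨l, ?_⟩
        have hol : orderOf l = orderOf x.right := by
          rw [← orderOf_injective φ hφ, hl, Subgroup.orderOf_coe]
        have h1 : (x.right : MulAut (Xk (N + 1))) ^ orderOf l = 1 := by
          rw [hol, ← Subgroup.orderOf_coe, pow_orderOf_eq_one]
        have h2 : x ^ (orderOf l * 2) = 1 := pow_one_of_exp x h1 xk_sq
        have h3 : p * q ∣ orderOf l * 2 := hx ▸ orderOf_dvd_of_pow_eq_one h2
        have hcop : Nat.Coprime (p * q) 2 := by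
          apply Nat.Coprime.mul_left
          · exact (Nat.coprime_primes hp Nat.prime_two).2 hp2
          · exact (Nat.coprime_primes hq Nat.prime_two).2 hq2
        have h4 : p * q ∣ orderOf l := hcop.dvd_of_dvd_mul_right h3
        apply Nat.dvd_antisymm _ h4
        apply orderOf_dvd_of_pow_eq_one
        apply hφ
        rw [map_pow, map_one, hl]
        have h6 : x.right ^ (p * q) = 1 := by
          rw [← pow_right, ← hx, pow_orderOf_eq_one]; rfl
        exact congrArg Subtype.val h6

end main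

end CfsgLib.Gfour
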