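import Mathlib

/-!
# Transitive linear groups in characteristic 3 with a normal quaternion subgroup (helper17)
-/

set_option autoImplicit false
set_option linter.all false

namespace CfsgLib.Ggs

theorem card_le_nine {X V : Type*} [Group X] [AddCommGroup V] [Finite V] [DistribMulAction X V]
    (h3 : ∀ v : V, v + v + v = 0) (Q : Subgroup X) [hQ : Q.Normal] (i j : X) (hQij : Q = Subgroup.closure {i, j})
    (hi : ∀ v : V, i • i • v = -v) (hj : ∀ v : V, j • j • v = -v) (hij : ∀ v : V, i • j • v = -(j • i • v))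
    (htr : ∀ v w : V, v ≠ 0 → w ≠ 0 → ∃ g : X, g • v = w) : Nat.card V ≤ 9 := by
  classical
  have hiQ : i ∈ Q := by rw [hQij]; exact Subgroup.subset_closure (by simp)
  have hjQ : j ∈ Q := by rw [hQij]; exact Subgroup.subset_closure (by simp)
  let M : V → AddSubgroup V := fun v => AddSubgroup.closure (Set.range (fun q : Q => (q : X) • v))
  have hMself : ∀ v, v ∈ M v := fun v => AddSubgroup.subset_closure ⟨1, by simp⟩
  have hMinv : ∀ v, ∀ q ∈ Q, ∀ u ∈ M v, q • u ∈ M v := by
    intro v q hq u hu
    induction hu using AddSubgroup.closure_induction with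
    | mem x hx =>
      obtain ⟨r, rfl⟩ := hx
      refine AddSubgroup.subset_closure ⟨⟨q, hq⟩ * r, ?_⟩
      simp [mul_smul]
    | zero => rw [smul_zero]; exact (M v).zero_mem
    | add x y _ _ hx hy => rw [smul_add]; exact (M v).add_mem hx hy
    | neg x _ hx => rw [smul_neg]; exact (M v).neg_mem hx
  have hMle : ∀ v, ∀ u ∈ M v, M u ≤ M v := by
    intro v u hu
    rw [AddSubgroup.closure_le]
    rintro _ ⟨q, rfl⟩
    exact hMinv v q q.2 u hu
  have hMconj : ∀ (g : X) (v : V), M (g • v) = (M v).map (DistribSMul.toAddMonoidHom V g) := by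
    intro g v
    simp only [M]
    rw [AddMonoidHom.map_closure]
    congr 1
    ext u
    constructor
    · rintro ⟨q, rfl⟩
      refine ⟨(g⁻¹ * q * g) • v, ⟨⟨g⁻¹ * q * g, ?_⟩, rfl⟩, ?_⟩
      · have := hQ.conj_mem _ q.2 g⁻¹
        rwa [inv_inv] at this
      · change g • ((g⁻¹ * q * g) • v) = (q : X) • g • v
        rw [← mul_smul, ← mul_smul]; congr 1; group
    · rintro ⟨_, ⟨q, rfl⟩, rfl⟩
      refine ⟨⟨g * q * g⁻¹, hQ.conj_mem _ q.2 g⟩, ?_⟩
      change (g * q * g⁻¹) • g • v = g • ((q : X) • v)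
      rw [← mul_smul, ← mul_smul]; congr 1; group
  have hMcard : ∀ v w : V, v ≠ 0 → w ≠ 0 → Nat.card (M v) = Nat.card (M w) := by
    intro v w hv hw
    obtain ⟨g, rfl⟩ := htr v w hv hw
    rw [hMconj]
    exact (AddSubgroup.card_map_of_injective (MulAction.injective g)).symm
  have hMeq : ∀ v u : V, v ≠ 0 → u ≠ 0 → u ∈ M v → M u = M v := by
    intro v u hv hu huv
    exact AddSubgroup.eq_of_le_of_card_ge (hMle v u huv) (hMcard v u hv hu).le
  have hαβ : ∀ v : V, (v - i • v - j • v) + i • (v - i • v - j • v) + j • (v - i • v - j • v) = 0 := by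
    intro v
    simp only [smul_sub]
    rw [hi, hj, hij]
    have := h3 v
    have e : v - i • v - j • v + (i • v - -v - -(j • i • v)) + (j • v - j • i • v - -v) = v + v + v := by abel
    rw [e, this]
  -- `k = i j`
  have hk : ∀ v : V, i • j • (v + i • v + j • v) = i • j • v - i • i • j • v - j • i • j • v := by
    intro v
    simp only [smul_add]
    have e1 : i • j • i • v = - (i • i • j • v) := by
      rw [hij v, smul_neg, neg_neg]
    have e2 : i • j • j • v = -(j • i • j • v) := by
      rw [hij (j • v)]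
    rw [e1, e2]
    abel
  have hex : (∃ w : V, w ≠ 0) → ∃ v₀ : V, v₀ ≠ 0 ∧ v₀ + i • v₀ + j • v₀ = 0 := by
    rintro ⟨w, hw⟩
    by_contra hno
    push Not at hno
    have hβ : ∀ u : V, u - i • u - j • u = 0 := by
      intro u
      by_contra hu
      exact hno _ hu (hαβ u)
    apply hno w hw
    have h1 := hk w
    rw [hβ (i • j • w)] at h1
    have h2 : i • j • (w + i • w + j • w) = i • j • (0 : V) := by rw [h1]; simp
    exact MulAction.injective j (MulAction.injective i h2)
  by_cases hV : ∃ w : V, w ≠ 0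
  swap
  · push Not at hV
    haveI : Subsingleton V := ⟨fun a b => by rw [hV a, hV b]⟩
    rw [Nat.card_eq_one_iff_unique.2 ⟨inferInstance, ⟨0⟩⟩]
    norm_num
  obtain ⟨v₀, hv₀, hα₀⟩ := hex hV
  have hMtop : ∀ w : V, w ∈ M v₀ := by
    by_contra hno
    push Not at hno
    obtain ⟨w, hw⟩ := hno
    have hw0 : w ≠ 0 := by rintro rfl; exact hw (M v₀).zero_mem
    have hv₀w : v₀ ∉ M w := by
      intro h
      apply hw
      rw [hMeq w v₀ hw0 hv₀ h]
      exact hMself w
    have hα : ∀ w' ∈ M w, w' + i • w' + j • w' = 0 := by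
      intro w' hw'
      by_contra hne
      have hαu : (v₀ + w') + i • (v₀ + w') + j • (v₀ + w') = w' + i • w' + j • w' := by
        rw [smul_add, smul_add]
        have e : v₀ + w' + (i • v₀ + i • w') + (j • v₀ + j • w') = (v₀ + i • v₀ + j • v₀) + (w' + i • w' + j • w') := by abel
        rw [e, hα₀, zero_add]
      have hu0 : v₀ + w' ≠ 0 := by
        intro h
        apply hv₀w
        rw [eq_neg_of_add_eq_zero_left h]
        exact (M w).neg_mem hw'
      have h1 : w' + i • w' + j • w' ∈ M (v₀ + w') := by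
        rw [← hαu]
        exact (M _).add_mem ((M _).add_mem (hMself _) (hMinv _ i hiQ _ (hMself _))) (hMinv _ j hjQ _ (hMself _))
      have h2 : w' + i • w' + j • w' ∈ M w :=
        (M _).add_mem ((M _).add_mem hw' (hMinv _ i hiQ _ hw')) (hMinv _ j hjQ _ hw')
      have h3' := hMeq _ _ hu0 hne h1
      have h4 := hMeq _ _ hw0 hne h2
      have h5 : v₀ + w' ∈ M w := by rw [← h4, h3']; exact hMself _
      apply hv₀w
      have h6 := (M w).sub_mem h5 hw'
      rwa [add_sub_cancel_right] at h6
    have h1 := hα _ (hMinv w i hiQ _ (hMinv w j hjQ _ (hMself w)))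
    have h2 := hk w
    rw [hα w (hMself w), smul_zero, smul_zero] at h2
    -- both vanish
    have h4 : (i • j • w) + (i • j • w) = 0 := by
      have e : (i • j • w) + (i • j • w) = (i • j • w + i • i • j • w + j • i • j • w) + (i • j • w - i • i • j • w - j • i • j • w) := by abel
      rw [e, h1, ← h2, add_zero]
    have h5 := h3 (i • j • w)
    rw [h4, zero_add] at h5
    have h6 : i • j • w = i • j • (0 : V) := by rw [h5]; simp
    exact hw0 (MulAction.injective j (MulAction.injective i h6))
  have hjv : j • v₀ = -v₀ - i • v₀ := by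
    have e : j • v₀ = (v₀ + i • v₀ + j • v₀) - v₀ - i • v₀ := by abel
    rw [e, hα₀]; abel
  let S : AddSubgroup V := AddSubgroup.closure {v₀, i • v₀}
  have hS1 : v₀ ∈ S := AddSubgroup.subset_closure (by simp)
  have hS2 : i • v₀ ∈ S := AddSubgroup.subset_closure (by simp)
  have hSi : ∀ u ∈ S, i • u ∈ S := by
    intro u hu
    induction hu using AddSubgroup.closure_induction with
    | mem x hx =>
      rcases hx with rfl | hx
      · exact hS2
      · rw [Set.mem_singleton_iff.1 hx, hi]; exact S.neg_mem hS1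
    | zero => rw [smul_zero]; exact S.zero_mem
    | add x y _ _ hx hy => rw [smul_add]; exact S.add_mem hx hy
    | neg x _ hx => rw [smul_neg]; exact S.neg_mem hx
  have hSj : ∀ u ∈ S, j • u ∈ S := by
    intro u hu
    induction hu using AddSubgroup.closure_induction with
    | mem x hx =>
      rcases hx with rfl | hx
      · rw [hjv]; exact S.sub_mem (S.neg_mem hS1) hS2
      · rw [Set.mem_singleton_iff.1 hx]
        have e : j • i • v₀ = -(i • j • v₀) := by rw [hij, neg_neg]
        rw [e, hjv]
        exact S.neg_mem (hSi _ (S.sub_mem (S.neg_mem hS1) hS2))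
    | zero => rw [smul_zero]; exact S.zero_mem
    | add x y _ _ hx hy => rw [smul_add]; exact S.add_mem hx hy
    | neg x _ hx => rw [smul_neg]; exact S.neg_mem hx
  have hinv : ∀ g : X, (∀ u ∈ S, g • u ∈ S) → ∀ u ∈ S, g⁻¹ • u ∈ S := by
    intro g hg u hu
    have hmap : S.map (DistribSMul.toAddMonoidHom V g) = S := by
      apply AddSubgroup.eq_of_le_of_card_ge
      · rintro _ ⟨x, hx, rfl⟩
        exact hg x hx
      · rw [AddSubgroup.card_map_of_injective (MulAction.injective g)]
    rw [← hmap] at hu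
    obtain ⟨x, hx, rfl⟩ := hu
    change g⁻¹ • g • x ∈ S
    rw [inv_smul_smul]
    exact hx
  have hSQ : ∀ q ∈ Q, ∀ u ∈ S, q • u ∈ S := by
    intro q hq
    rw [hQij] at hq
    induction hq using Subgroup.closure_induction with
    | mem x hx =>
      rcases hx with rfl | hx
      · exact hSi
      · rw [Set.mem_singleton_iff.1 hx]; exact hSj
    | one => intro u hu; rw [one_smul]; exact hu
    | mul x y _ _ hx hy => intro u hu; rw [mul_smul]; exact hx _ (hy u hu)
    | inv x _ hx => exact hinv x hx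
  have hMS : M v₀ ≤ S := by
    rw [AddSubgroup.closure_le]
    rintro _ ⟨q, rfl⟩
    exact hSQ q q.2 v₀ hS1
  have hsurj : Function.Surjective (fun ab : Fin 3 × Fin 3 => (ab.1 : ℕ) • v₀ + (ab.2 : ℕ) • (i • v₀)) := by
    intro u
    obtain ⟨m, n, hmn⟩ := AddSubgroup.mem_closure_pair.1 (hMS (hMtop u))
    have hmod : ∀ (m : ℤ) (v : V), ∃ a : Fin 3, (a : ℕ) • v = m • v := by
      intro m v
      have h0 : (m % 3).toNat < 3 := by omega
      refine ⟨⟨(m % 3).toNat, h0⟩, ?_⟩
      have h1 : m = 3 * (m / 3) + m % 3 := (Int.mul_ediv_add_emod m 3).symm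
      have h2 : ((m % 3).toNat : ℤ) = m % 3 := Int.toNat_of_nonneg (by omega)
      have h3' : (3 : ℤ) • v = 0 := by
        have : (3 : ℤ) • v = v + v + v := by
          rw [show (3 : ℤ) = 1 + 1 + 1 by norm_num, add_smul, add_smul, one_smul]
        rw [this, h3]
      change (m % 3).toNat • v = m • v
      rw [← natCast_zsmul, h2]
      conv_rhs => rw [h1, add_smul, mul_comm, mul_smul, h3', smul_zero, zero_add]
    obtain ⟨a, ha⟩ := hmod m v₀
    obtain ⟨b, hb⟩ := hmod n (i • v₀)
    exact ⟨(a, b), by rw [← hmn, ← ha, ← hb]⟩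
  have := Nat.card_le_card_of_surjective _ hsurj
  rwa [Nat.card_prod, Nat.card_fin] at this

end CfsgLib.Ggs
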