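import Mathlib
import Cfsg.Agent.LibGgs1
import Cfsg.Agent.LibFPF1
import Cfsg.Agent.LibCores

/-!
# Fixed point free actions of `p'`-subgroups, unique subgroups of prime order (helper17)
-/

set_option autoImplicit false
set_option linter.all false

namespace CfsgLib.Ggs

open Subgroup Cfsg

universe u v

/-- the action as a homomorphism to the automorphism group -/
def phi (X : Type u) (V : Type v) [Group X] [AddCommGroup V] [DistribMulAction X V] : X →* MulAut (Multiplicative V) where
  toFun g := AddEquiv.toMultiplicative (DistribMulAction.toAddEquiv V g)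
  map_one' := by
    ext v
    change Multiplicative.ofAdd ((1 : X) • Multiplicative.toAdd v) = v
    rw [one_smul]; rfl
  map_mul' a b := by
    ext v
    change Multiplicative.ofAdd ((a * b) • Multiplicative.toAdd v) = Multiplicative.ofAdd (a • b • Multiplicative.toAdd v)
    rw [mul_smul]

theorem unique_sub {X V : Type u} [Group X] [Finite X] [AddCommGroup V] [Finite V] [DistribMulAction X V]
    (R : Subgroup X) {r : ℕ} (hr : r.Prime) (hR : IsPGroup r R)
    (hfpf : ∀ x ∈ R, x ≠ 1 → ∀ v : V, x • v = v → v = 0) (hV : ∃ v : V, v ≠ 0) :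
    ∀ H K : Subgroup R, Nat.card H = r → Nat.card K = r → H = K := by
  classical
  haveI : Finite (Multiplicative V ⋊[phi X V] X) := Finite.of_equiv _ SemidirectProduct.equivProd.symm
  have hinj : Function.Injective (SemidirectProduct.inr : X →* Multiplicative V ⋊[phi X V] X) :=
    SemidirectProduct.inr_injective
  have hF : CfsgLib.FPF1.FPF (R.map (SemidirectProduct.inr : X →* Multiplicative V ⋊[phi X V] X))
      (SemidirectProduct.inl : Multiplicative V →* Multiplicative V ⋊[phi X V] X).range := by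
    intro a ha ha1
    rw [eq_bot_iff]
    rintro _ ⟨⟨n, rfl⟩, hc⟩
    obtain ⟨x, hx, rfl⟩ := ha
    have hx1 : x ≠ 1 := by
      rintro rfl
      exact ha1 (map_one _)
    have hc' : SemidirectProduct.inl n * SemidirectProduct.inr x =
        (SemidirectProduct.inr x * SemidirectProduct.inl n : Multiplicative V ⋊[phi X V] X) :=
      mem_centralizer_singleton_iff.1 hc
    have h1 : (SemidirectProduct.inl (phi X V x n) : Multiplicative V ⋊[phi X V] X) = SemidirectProduct.inl n := by
      rw [SemidirectProduct.inl_aut, ← hc', mul_assoc, ← map_mul, mul_inv_cancel, map_one, mul_one]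
    have h2 : phi X V x n = n := SemidirectProduct.inl_injective h1
    have h3 : x • (Multiplicative.toAdd n) = Multiplicative.toAdd n := congrArg Multiplicative.toAdd h2
    have h4 := hfpf x hx hx1 _ h3
    have h5 : n = 1 := Multiplicative.toAdd.injective h4
    rw [h5, map_one]
    exact Subgroup.mem_bot.2 rfl
  haveI hVn : ((SemidirectProduct.inl : Multiplicative V →* Multiplicative V ⋊[phi X V] X).range).Normal := by
    rw [SemidirectProduct.range_inl_eq_ker_rightHom]; infer_instance
  have hVne : (SemidirectProduct.inl : Multiplicative V →* Multiplicative V ⋊[phi X V] X).range ≠ ⊥ := by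
    intro h
    obtain ⟨v, hv⟩ := hV
    have h1 : (SemidirectProduct.inl (Multiplicative.ofAdd v) : Multiplicative V ⋊[phi X V] X) ∈
        (SemidirectProduct.inl : Multiplicative V →* Multiplicative V ⋊[phi X V] X).range := ⟨_, rfl⟩
    rw [h, mem_bot] at h1
    have h2 : Multiplicative.ofAdd v = 1 := SemidirectProduct.inl_injective (h1.trans (map_one _).symm)
    exact hv (Multiplicative.ofAdd.injective h2)
  have key := hF.unique_sub (by rw [normalizer_eq_top]; exact le_top) hVne hr (hR.map _)
  intro H K hH hK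
  let e : R ≃* R.map (SemidirectProduct.inr : X →* Multiplicative V ⋊[phi X V] X) := R.equivMapOfInjective _ hinj
  have h1 := key (H.map e.toMonoidHom) (K.map e.toMonoidHom)
    (by rw [Subgroup.card_map_of_injective e.injective, hH])
    (by rw [Subgroup.card_map_of_injective e.injective, hK])
  exact Subgroup.map_injective e.injective h1

/-- `x` of order prime to `2` centralizes a quaternion group different from `Q₈` -/
theorem cent_quat {X : Type u} [Group X] [Finite X] {p : ℕ} [hp : Fact p.Prime] (hp2 : p ≠ 2) (R : Subgroup X)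
    [hRn : R.Normal] (hcyc : ∀ C : Subgroup X, C.Normal → IsCyclic C → commutator X ≤ centralizer (C : Set X))
    {n : ℕ} (hn : n ≠ 1) (e : R ≃* QuaternionGroup (2 ^ n)) {x : X} (hx : x ∈ commutator X)
    (hxp : ∃ k : ℕ, orderOf x = p ^ k) : ∀ q ∈ R, x * q = q * x := by
  classical
  haveI : NeZero (2 ^ n) := ⟨pow_ne_zero _ two_ne_zero⟩
  let c : R := e.symm (QuaternionGroup.a 1)
  have hco : orderOf c = 2 * 2 ^ n := by
    rw [← MulEquiv.orderOf_eq e c, MulEquiv.apply_symm_apply, QuaternionGroup.orderOf_a_one]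
  -- elements outside
  have hout : ∀ q : R, q ∉ zpowers c → orderOf q = 4 := by
    intro q hq
    rw [← MulEquiv.orderOf_eq e q]
    rcases hq' : e q with i | i
    · exfalso
      apply hq
      have h1 : e q = (QuaternionGroup.a 1) ^ (i.val) := by
        rw [hq', QuaternionGroup.a_one_pow, ZMod.natCast_zmod_val]
      have h2 : q = c ^ i.val := by
        apply e.injective
        rw [map_pow, MulEquiv.apply_symm_apply, h1]
      rw [h2]
      exact (zpowers c).pow_mem (mem_zpowers c) _
    · exact QuaternionGroup.orderOf_xa i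
  have h4 : (2 * 2 ^ n : ℕ) ≠ 4 := by
    intro h
    apply hn
    have h1 : (2 : ℕ) ^ n = 2 ^ 1 := by omega
    exact Nat.pow_right_injective le_rfl h1
  have hprod : ∀ q q' : R, q ∉ zpowers c → q' ∉ zpowers c → q⁻¹ * q' ∈ zpowers c := by
    intro q q' hq hq'
    have hmem : ∀ i : ZMod (2 * 2 ^ n), e.symm (QuaternionGroup.a i) ∈ zpowers c := by
      intro i
      have h2 : e.symm (QuaternionGroup.a i) = c ^ i.val := by
        apply e.injective
        rw [map_pow, MulEquiv.apply_symm_apply, MulEquiv.apply_symm_apply, QuaternionGroup.a_one_pow, ZMod.natCast_zmod_val]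
      rw [h2]
      exact (zpowers c).pow_mem (mem_zpowers c) _
    rcases hqe : e q with i | i
    · exfalso; apply hq; have := hmem i; rwa [← hqe, MulEquiv.symm_apply_apply] at this
    rcases hqe' : e q' with j | j
    · exfalso; apply hq'; have := hmem j; rwa [← hqe', MulEquiv.symm_apply_apply] at this
    have h5 : e (q⁻¹ * q') = (QuaternionGroup.xa i)⁻¹ * QuaternionGroup.xa j := by
      rw [map_mul, map_inv, hqe, hqe']
    have h6 : ∃ k, e (q⁻¹ * q') = QuaternionGroup.a k := by
      rw [h5]
      exact ⟨_, rfl⟩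
    obtain ⟨k, hk⟩ := h6
    have := hmem k
    rwa [← hk, MulEquiv.symm_apply_apply] at this
  -- `C₀` is normal in `X`
  have hC0n : (zpowers (c : X)).Normal := by
    constructor
    rintro _ ⟨k, rfl⟩ g
    have h5 : g * (c : X) * g⁻¹ ∈ R := hRn.conj_mem _ c.2 g
    have h6 : orderOf (⟨g * (c : X) * g⁻¹, h5⟩ : R) = 2 * 2 ^ n := by
      rw [Subgroup.orderOf_mk, ← hco, ← Subgroup.orderOf_coe]
      exact orderOf_injective (MulAut.conj g).toMonoidHom (MulAut.conj g).injective (c : X)
    have h7 : (⟨g * (c : X) * g⁻¹, h5⟩ : R) ∈ zpowers c := by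
      by_contra h8
      exact h4 (h6.symm.trans (hout _ h8))
    obtain ⟨m, hm⟩ := h7
    have h8 : (c : X) ^ m = g * (c : X) * g⁻¹ := by
      have := congrArg Subtype.val hm
      push_cast at this
      exact this
    refine ⟨m * k, ?_⟩
    change (c : X) ^ (m * k) = g * (c : X) ^ k * g⁻¹
    rw [zpow_mul, h8, conj_zpow]
  have hcx : ∀ y ∈ zpowers (c : X), y * x = x * y := by
    intro y hy
    exact mem_centralizer_iff.1 (hcyc _ hC0n (by infer_instance) hx) y hy
  intro q hq
  by_cases hqc : q ∈ zpowers (c : X)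
  · exact (hcx q hqc).symm
  have hqc' : (⟨q, hq⟩ : R) ∉ zpowers c := by
    rintro ⟨k, hk⟩
    apply hqc
    refine ⟨k, ?_⟩
    have := congrArg Subtype.val hk
    push_cast at this
    exact this
  have hxq : x * q * x⁻¹ ∈ R := hRn.conj_mem _ hq x
  have hxqc : (⟨x * q * x⁻¹, hxq⟩ : R) ∉ zpowers c := by
    rintro ⟨k, hk⟩
    apply hqc
    have h5 : (c : X) ^ k = x * q * x⁻¹ := by
      have := congrArg Subtype.val hk
      push_cast at this
      exact this
    have h6 : q = x⁻¹ * (c : X) ^ k * x := by rw [h5]; group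
    have h7 := hC0n.conj_mem _ (⟨k, rfl⟩ : (c : X) ^ k ∈ zpowers (c : X)) x⁻¹
    rw [inv_inv] at h7
    rw [h6]; exact h7
  obtain ⟨m, hm⟩ := hprod _ _ hqc' hxqc
  have hd : (c : X) ^ m = q⁻¹ * (x * q * x⁻¹) := by
    have := congrArg Subtype.val hm
    push_cast at this
    exact this
  have hdx := hcx _ (⟨m, rfl⟩ : (c : X) ^ m ∈ zpowers (c : X))
  -- powers
  have hpow : ∀ k : ℕ, x ^ k * q * (x ^ k)⁻¹ = q * ((c : X) ^ m) ^ k := by
    intro k
    induction k with
    | zero => simp
    | succ k ih =>
      have h5 : x ^ (k + 1) * q * (x ^ (k + 1))⁻¹ = x ^ k * (x * q * x⁻¹) * (x ^ k)⁻¹ := by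
        rw [pow_succ]; group
      have h6 : x * q * x⁻¹ = q * (c : X) ^ m := by rw [hd]; group
      have h7 : x ^ k * (c : X) ^ m = (c : X) ^ m * x ^ k := ((show Commute ((c : X) ^ m) x from hdx).pow_right k).symm
      have h8 : x ^ k * (c : X) ^ m * (x ^ k)⁻¹ = (c : X) ^ m := by rw [h7, mul_inv_cancel_right]
      have h9 : x ^ k * (q * (c : X) ^ m) * (x ^ k)⁻¹ = (x ^ k * q * (x ^ k)⁻¹) * (x ^ k * (c : X) ^ m * (x ^ k)⁻¹) := by
        simp only [mul_assoc, inv_mul_cancel_left]
      rw [h5, h6, h9, h8, ih, pow_succ, mul_assoc]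
  obtain ⟨k, hk⟩ := hxp
  have h5 := hpow (p ^ k)
  rw [← hk, pow_orderOf_eq_one, one_mul, inv_one, mul_one] at h5
  have h6 : ((c : X) ^ m) ^ orderOf x = 1 := by
    have := mul_left_cancel ((mul_one q).trans h5)
    exact this.symm
  have h7 : orderOf ((c : X) ^ m) ∣ p ^ k := by rw [← hk]; exact orderOf_dvd_of_pow_eq_one h6
  have h8 : orderOf ((c : X) ^ m) ∣ 2 ^ (n + 1) := by
    apply orderOf_dvd_of_pow_eq_one
    have h9 : (c : X) ^ (2 ^ (n + 1)) = 1 := by
      have : orderOf (c : X) = 2 ^ (n + 1) := by rw [Subgroup.orderOf_coe, hco, pow_succ, mul_comm]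
      rw [← this, pow_orderOf_eq_one]
    rw [← zpow_natCast, ← zpow_mul, mul_comm, zpow_mul, zpow_natCast, h9, one_zpow]
  have h9 : orderOf ((c : X) ^ m) = 1 :=
    Nat.eq_one_of_dvd_coprimes (Nat.Coprime.pow k (n + 1) ((Nat.coprime_primes hp.out Nat.prime_two).2 hp2)) h7 h8
  rw [orderOf_eq_one_iff] at h9
  rw [h9] at hd
  have h10 : x * q * x⁻¹ = q := (inv_mul_eq_one.1 hd.symm).symm
  calc x * q = (x * q * x⁻¹) * x := by group
    _ = q * x := by rw [h10]

end CfsgLib.Ggs
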