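import Mathlib
import Cfsg.Agent.LibGgs2
import Cfsg.Agent.LibH2Solv

/-!
# Solvable transitive linear groups whose `p'`-elements act fixed point freely (helper17)
-/

set_option autoImplicit false
set_option linter.all false

namespace CfsgLib.Ggs

open Subgroup Cfsg

universe u

variable {X V : Type u} [Group X] [Finite X] [AddCommGroup V] [Finite V] [DistribMulAction X V]

theorem exc (hpV : ∀ v : V, v + v + v = 0) (hfaith : ∀ x : X, (∀ v : V, x • v = v) → x = 1)
    (htr : ∀ v w : V, v ≠ 0 → w ≠ 0 → ∃ g : X, g • v = w)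
    (hfpf : ∀ x : X, (orderOf x).Coprime 3 → x ≠ 1 → ∀ v : V, x • v = v → v = 0)
    (hne : ∃ v : V, v ≠ 0) (R : Subgroup X) [hRn : R.Normal] (hRfpf : ∀ x ∈ R, x ≠ 1 → ∀ v : V, x • v = v → v = 0)
    (e : R ≃* QuaternionGroup 2) : ¬ 3 ∣ Nat.card (commutator X) := by
  classical
  obtain ⟨v₀, hv₀⟩ := hne
  let i : R := e.symm (QuaternionGroup.a 1)
  let j : R := e.symm (QuaternionGroup.xa 0)
  let z : R := e.symm (QuaternionGroup.a 2)
  have hii : i * i = z := by
    apply e.injective
    rw [map_mul, MulEquiv.apply_symm_apply, MulEquiv.apply_symm_apply]; decide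
  have hjj : j * j = z := by
    apply e.injective
    rw [map_mul, MulEquiv.apply_symm_apply, MulEquiv.apply_symm_apply]; decide
  have hij : i * j = z * (j * i) := by
    apply e.injective
    rw [map_mul, map_mul, map_mul, MulEquiv.apply_symm_apply, MulEquiv.apply_symm_apply, MulEquiv.apply_symm_apply]; decide
  have hzz : z * z = 1 := by
    apply e.injective
    rw [map_mul, map_one, MulEquiv.apply_symm_apply]; decide
  have hz1 : z ≠ 1 := by
    intro h
    have h1 := congrArg e h
    rw [map_one, MulEquiv.apply_symm_apply] at h1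
    exact absurd h1 (by decide)
  have hzv : ∀ v : V, (z : X) • v = -v := by
    intro v
    have h1 : (z : X) • (v + (z : X) • v) = v + (z : X) • v := by
      rw [smul_add, ← mul_smul]
      have h2 : (z : X) * z = 1 := congrArg Subtype.val hzz
      rw [h2, one_smul, add_comm]
    have h2 := hRfpf z z.2 (fun h => hz1 (Subtype.ext h)) _ h1
    exact (neg_eq_of_add_eq_zero_right h2).symm
  have hi : ∀ v : V, (i : X) • (i : X) • v = -v := by
    intro v
    rw [← mul_smul, ← hzv]
    exact congrArg (fun t : R => (t : X) • v) hii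
  have hj : ∀ v : V, (j : X) • (j : X) • v = -v := by
    intro v
    rw [← mul_smul, ← hzv]
    exact congrArg (fun t : R => (t : X) • v) hjj
  have hij' : ∀ v : V, (i : X) • (j : X) • v = -((j : X) • (i : X) • v) := by
    intro v
    rw [← mul_smul, ← hzv, ← mul_smul (j : X), ← mul_smul]
    exact congrArg (fun t : R => (t : X) • v) hij
  have hR : R = Subgroup.closure {(i : X), (j : X)} := by
    apply le_antisymm
    · intro q hq
      have hiC : (i : X) ∈ Subgroup.closure {(i : X), (j : X)} := Subgroup.subset_closure (by simp)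
      have hjC : (j : X) ∈ Subgroup.closure {(i : X), (j : X)} := Subgroup.subset_closure (by simp)
      rcases hqe : e ⟨q, hq⟩ with k | k
      · have h1 : (⟨q, hq⟩ : R) = i ^ k.val := by
          apply e.injective
          rw [hqe, map_pow, MulEquiv.apply_symm_apply, QuaternionGroup.a_one_pow, ZMod.natCast_zmod_val]
        have h2 : q = (i : X) ^ k.val := by
          have := congrArg Subtype.val h1
          push_cast at this
          exact this
        rw [h2]
        exact Subgroup.pow_mem _ hiC _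
      · have h1 : (⟨q, hq⟩ : R) = j * i ^ k.val := by
          apply e.injective
          rw [hqe, map_mul, map_pow, MulEquiv.apply_symm_apply, MulEquiv.apply_symm_apply, QuaternionGroup.a_one_pow,
            ZMod.natCast_zmod_val, QuaternionGroup.xa_mul_a, zero_add]
        have h2 : q = (j : X) * (i : X) ^ k.val := by
          have := congrArg Subtype.val h1
          push_cast at this
          exact this
        rw [h2]
        exact Subgroup.mul_mem _ hjC (Subgroup.pow_mem _ hiC _)
    · rw [Subgroup.closure_le]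
      intro q hq
      rcases hq with rfl | hq
      · exact i.2
      · rw [Set.mem_singleton_iff.1 hq]; exact j.2
  have h9 : Nat.card V ≤ 9 := card_le_nine hpV R (i : X) (j : X) hR hi hj hij' htr
  have hRc : Nat.card R = 8 := by
    rw [Nat.card_congr e.toEquiv, Nat.card_eq_fintype_card, QuaternionGroup.card]
  have hfi : Function.Injective (fun o : Option R => o.elim (0 : V) (fun q => (q : X) • v₀)) := by
    have hq0 : ∀ q : X, q • v₀ ≠ 0 := by
      intro q h
      apply hv₀
      have := congrArg (fun t => q⁻¹ • t) h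
      simpa using this
    rintro (_ | q) (_ | q') h
    · rfl
    · exact absurd h.symm (hq0 q')
    · exact absurd h (hq0 q)
    · have h1 : (q : X) • v₀ = (q' : X) • v₀ := h
      have h2 : ((q' : X)⁻¹ * q) • v₀ = v₀ := by rw [mul_smul, h1, inv_smul_smul]
      by_contra hne
      apply hv₀
      refine hRfpf _ (R.mul_mem (R.inv_mem q'.2) q.2) ?_ _ h2
      intro h3
      apply hne
      rw [inv_mul_eq_one] at h3
      rw [Subtype.ext h3.symm]
  have hoc : Nat.card (Option R) = 9 := by rw [Finite.card_option, hRc]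
  have hbij := hfi.bijective_of_nat_card_le (by rw [hoc]; exact h9)
  have hV9 : Nat.card V = 9 := by rw [← hoc]; exact (Nat.card_congr (Equiv.ofBijective _ hbij)).symm
  have hreg : ∀ v : V, v ≠ 0 → ∃ q ∈ R, q • v₀ = v := by
    intro v hv
    obtain ⟨o, ho⟩ := hbij.2 v
    rcases o with _ | q
    · exact absurd ho.symm hv
    · exact ⟨q, q.2, ho⟩
  -- the stabilizer
  obtain ⟨S, hS⟩ : ∃ S : Subgroup X, S = MulAction.stabilizer X v₀ := ⟨_, rfl⟩
  have hSm : ∀ s : X, s ∈ S ↔ s • v₀ = v₀ := by intro s; rw [hS]; exact MulAction.mem_stabilizer_iff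
  have hS3 : IsPGroup 3 S := by
    intro s
    obtain ⟨a, m, hm, ham⟩ := Nat.exists_eq_pow_mul_and_not_dvd (orderOf_pos (s : X)).ne' 3 (by norm_num)
    refine ⟨a, ?_⟩
    apply Subtype.ext
    push_cast
    by_contra hne
    apply hv₀
    refine hfpf ((s : X) ^ 3 ^ a) ?_ hne v₀ ((hSm _).1 (S.pow_mem s.2 _))
    have h1 : orderOf ((s : X) ^ 3 ^ a) ∣ m := by
      apply orderOf_dvd_of_pow_eq_one
      rw [← pow_mul, ← ham, pow_orderOf_eq_one]
    have h2 : Nat.Coprime m 3 := ((Nat.Prime.coprime_iff_not_dvd Nat.prime_three).2 hm).symm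
    exact Nat.Coprime.coprime_dvd_left h1 h2
  have hSinj : Function.Injective (fun o : Option S => o.elim (0 : V) (fun s => (s : X) • (i : X) • v₀)) := by
    have hq0 : ∀ q : X, q • (i : X) • v₀ ≠ 0 := by
      intro q h
      apply hv₀
      rw [← mul_smul] at h
      have h0 := inv_smul_smul (q * (i : X)) v₀
      rw [h, smul_zero] at h0
      exact h0.symm
    rintro (_ | s) (_ | s') h
    · rfl
    · exact absurd h.symm (hq0 s')
    · exact absurd h (hq0 s)
    · have h1 : (s : X) • (i : X) • v₀ = (s' : X) • (i : X) • v₀ := h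
      obtain ⟨t, ht⟩ : ∃ t : X, t = (s' : X)⁻¹ * s := ⟨_, rfl⟩
      have ht0 : t • v₀ = v₀ := by
        rw [ht]; exact (hSm _).1 (S.mul_mem (S.inv_mem s'.2) s.2)
      have ht1 : t • (i : X) • v₀ = (i : X) • v₀ := by rw [ht, mul_smul, h1, inv_smul_smul]
      let W : AddSubgroup V :=
        { carrier := {v | t • v = v}
          zero_mem' := smul_zero t
          add_mem' := by intro a b ha hb; change t • (a + b) = a + b; rw [smul_add, ha, hb]
          neg_mem' := by intro a ha; change t • (-a) = -a; rw [smul_neg, ha] }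
      have hWd : Nat.card W ∣ 3 ^ 2 := by
        have := AddSubgroup.card_addSubgroup_dvd_card W
        rwa [hV9] at this
      obtain ⟨k, hk, hkW⟩ := (Nat.dvd_prime_pow Nat.prime_three).1 hWd
      have ho3 : addOrderOf v₀ = 3 := by
        apply addOrderOf_eq_prime
        · rw [show (3 : ℕ) = 1 + 1 + 1 by norm_num, add_nsmul, add_nsmul, one_nsmul, hpV]
        · exact hv₀
      have hz3 : Nat.card (AddSubgroup.zmultiples v₀) = 3 := by rw [Nat.card_zmultiples, ho3]
      have hzW : AddSubgroup.zmultiples v₀ ≤ W := by rw [AddSubgroup.zmultiples_le]; exact ht0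
      have hW9 : Nat.card W = 9 := by
        interval_cases k
        · exfalso
          have := AddSubgroup.card_le_of_le hzW
          rw [hz3, hkW] at this
          norm_num at this
        · exfalso
          have h5 : AddSubgroup.zmultiples v₀ = W := AddSubgroup.eq_of_le_of_card_ge hzW (by rw [hz3, hkW]; norm_num)
          have h6 : (i : X) • v₀ ∈ AddSubgroup.zmultiples v₀ := by rw [h5]; exact ht1
          obtain ⟨m, hm⟩ := AddSubgroup.mem_zmultiples_iff.1 h6
          have h7 := hi v₀
          rw [← hm, smul_comm, ← hm, ← mul_smul] at h7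
          have h8 : (m * m + 1) • v₀ = 0 := by rw [add_smul, one_smul, h7, neg_add_cancel]
          have h9' : ((addOrderOf v₀ : ℕ) : ℤ) ∣ m * m + 1 := addOrderOf_dvd_iff_zsmul_eq_zero.2 h8
          rw [ho3] at h9'
          have h10 : (m * m + 1) % 3 = 0 := Int.emod_eq_zero_of_dvd (by exact_mod_cast h9')
          have h11 : m % 3 = 0 ∨ m % 3 = 1 ∨ m % 3 = 2 := by omega
          rcases h11 with h | h | h <;> simp [Int.add_emod, Int.mul_emod, h] at h10
        · rw [hkW]; norm_num
      have hWtop : W = ⊤ := AddSubgroup.eq_top_of_card_eq W (by rw [hW9, hV9])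
      have ht' : t = 1 := by
        apply hfaith
        intro v
        have : v ∈ W := by rw [hWtop]; trivial
        exact this
      rw [ht, inv_mul_eq_one] at ht'
      rw [Subtype.ext ht'.symm]
  have hS8 : Nat.card S + 1 ≤ 9 := by
    rw [← Finite.card_option, ← hV9]
    exact Nat.card_le_card_of_injective _ hSinj
  have hSc : ∀ s ∈ S, ∀ t ∈ S, s * t = t * s := by
    obtain ⟨a, ha⟩ := IsPGroup.iff_card.1 hS3
    have ha2 : a < 2 := by
      by_contra hge
      have : 3 ^ 2 ≤ 3 ^ a := Nat.pow_le_pow_right (by norm_num) (by omega)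
      rw [← ha] at this
      omega
    have hcyc : IsCyclic S := by
      interval_cases a
      · haveI : Subsingleton S := (Nat.card_eq_one_iff_unique.1 (by rw [ha, pow_zero])).1
        exact isCyclic_of_subsingleton
      · haveI : Fact (Nat.Prime 3) := ⟨Nat.prime_three⟩
        exact isCyclic_of_prime_card (p := 3) (by rw [ha, pow_one])
    intro s hs t ht
    letI : CommGroup S := IsCyclic.commGroup
    exact congrArg Subtype.val (mul_comm (⟨s, hs⟩ : S) ⟨t, ht⟩)
  have hXR : commutator X ≤ R := by
    rw [← Subgroup.Normal.quotient_commutative_iff_commutator_le]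
    refine ⟨⟨fun a b => ?_⟩⟩
    obtain ⟨a, rfl⟩ := QuotientGroup.mk'_surjective R a
    obtain ⟨b, rfl⟩ := QuotientGroup.mk'_surjective R b
    have hdec : ∀ g : X, ∃ s ∈ S, QuotientGroup.mk' R g = QuotientGroup.mk' R s := by
      intro g
      have hg0 : g • v₀ ≠ 0 := by
        intro h
        apply hv₀
        have := congrArg (fun t => g⁻¹ • t) h
        simpa using this
      obtain ⟨q, hq, hqv⟩ := hreg _ hg0
      refine ⟨q⁻¹ * g, ?_, ?_⟩
      · rw [hSm, mul_smul, ← hqv, inv_smul_smul]
      · rw [map_mul, map_inv, show QuotientGroup.mk' R q = 1 from (QuotientGroup.eq_one_iff q).2 hq, inv_one, one_mul]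
    obtain ⟨s, hs, h1⟩ := hdec a
    obtain ⟨t, ht, h2⟩ := hdec b
    rw [h1, h2, ← map_mul, ← map_mul, hSc s hs t ht]
  intro hd
  have h1 := hd.trans (Subgroup.card_dvd_of_le hXR)
  rw [hRc] at h1
  norm_num at h1

theorem main [hs : Group.IsSolvable X] {p : ℕ} [hp : Fact p.Prime] (hpV : ∀ v : V, p • v = 0)
    (hfaith : ∀ x : X, (∀ v : V, x • v = v) → x = 1)
    (htr : ∀ v w : V, v ≠ 0 → w ≠ 0 → ∃ g : X, g • v = w)
    (hfpf : ∀ x : X, (orderOf x).Coprime p → x ≠ 1 → ∀ v : V, x • v = v → v = 0)
    (hne : ∃ v : V, v ≠ 0) (hcore : pCore p X = ⊥) : ¬ p ∣ Nat.card (commutator X) := by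
  classical
  have hfpfr : ∀ r : ℕ, r.Prime → r ≠ p → ∀ x ∈ pCore r X, x ≠ 1 → ∀ v : V, x • v = v → v = 0 := by
    intro r hr hrp x hx hx1
    apply hfpf x _ hx1
    haveI : Fact r.Prime := ⟨hr⟩
    obtain ⟨k, hk⟩ := IsPGroup.iff_orderOf.1 (CfsgLib.Cores.pCore_isPGroup (G := X) r) ⟨x, hx⟩
    rw [Subgroup.orderOf_mk] at hk
    rw [hk]
    exact Nat.Coprime.pow_left k ((Nat.coprime_primes hr hp.out).2 hrp)
  by_cases hex : p = 3 ∧ Nonempty (pCore 2 X ≃* QuaternionGroup (2 ^ 1))
  · obtain ⟨rfl, ⟨e⟩⟩ := hex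
    refine exc (fun v => ?_) hfaith htr hfpf hne (pCore 2 X) (hfpfr 2 Nat.prime_two (by norm_num)) e
    have := hpV v
    rwa [show (3 : ℕ) = 1 + 1 + 1 by norm_num, add_nsmul, add_nsmul, one_nsmul] at this
  intro hd
  obtain ⟨⟨x, hx⟩, hxo⟩ := exists_prime_orderOf_dvd_card' p hd
  rw [Subgroup.orderOf_mk] at hxo
  have hcyc : ∀ C : Subgroup X, C.Normal → IsCyclic C → commutator X ≤ centralizer (C : Set X) := by
    intro C hC hC'
    exact CfsgLib.H2Solv.commutator_le_centralizer_of_isCyclic C
  have hcent : ∀ r : ℕ, r.Prime → ∀ q ∈ pCore r X, x * q = q * x := by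
    intro r hr
    haveI : Fact r.Prime := ⟨hr⟩
    by_cases hrp : r = p
    · subst hrp
      intro q hq
      rw [hcore, mem_bot] at hq
      rw [hq, mul_one, one_mul]
    have hR := CfsgLib.Cores.pCore_isPGroup (G := X) r
    have huniq := unique_sub (pCore r X) hr hR (hfpfr r hr hrp) hne
    have hdone : IsCyclic (pCore r X) → ∀ q ∈ pCore r X, x * q = q * x := by
      intro hc q hq
      exact (mem_centralizer_iff.1 (hcyc _ inferInstance hc hx) q hq).symm
    by_cases hr2 : r = 2
    swap
    · exact hdone (CfsgLib.PCyc.isCyclic_of_unique_odd hr hr2 hR huniq)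
    subst hr2
    rcases CfsgLib.PCyc.cyclic_or_quaternion hR huniq with hc | ⟨n, ⟨e⟩⟩
    · exact hdone hc
    by_cases hn : n = 1
    swap
    · exact cent_quat (Ne.symm hrp) (pCore 2 X) hcyc hn e hx ⟨1, by rw [hxo, pow_one]⟩
    subst hn
    have hp3 : p ≠ 3 := fun h => hex ⟨h, ⟨e⟩⟩
    have hRc : Nat.card (pCore 2 X) = 8 := by
      rw [Nat.card_congr e.toEquiv, Nat.card_eq_fintype_card, QuaternionGroup.card]; norm_num
    -- the involution
    let z : pCore 2 X := e.symm (QuaternionGroup.a 2)
    have hzz : z * z = 1 := by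
      apply e.injective
      rw [map_mul, map_one, MulEquiv.apply_symm_apply]; decide
    have hz1 : z ≠ 1 := by
      intro h
      have h1 := congrArg e h
      rw [map_one, MulEquiv.apply_symm_apply] at h1
      exact absurd h1 (by decide)
    have hzo : orderOf z = 2 := orderOf_eq_prime (by rw [pow_two, hzz]) hz1
    have hxz : x * (z : X) * x⁻¹ ∈ pCore 2 X := (inferInstance : (pCore 2 X).Normal).conj_mem _ z.2 x
    have hzx : (z : X) * x = x * z := by
      have h1 : orderOf (⟨x * (z : X) * x⁻¹, hxz⟩ : pCore 2 X) = 2 := by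
        rw [Subgroup.orderOf_mk]
        have h0 : orderOf (x * (z : X) * x⁻¹) = orderOf (z : X) :=
          orderOf_injective (MulAut.conj x).toMonoidHom (MulAut.conj x).injective (z : X)
        rw [h0, Subgroup.orderOf_coe]
        exact hzo
      have h2 := huniq (zpowers z) (zpowers ⟨x * (z : X) * x⁻¹, hxz⟩) (by rw [Nat.card_zpowers, hzo])
        (by rw [Nat.card_zpowers, h1])
      have h3 : (⟨x * (z : X) * x⁻¹, hxz⟩ : pCore 2 X) ∈ zpowers z := by rw [h2]; exact mem_zpowers _
      obtain ⟨k, hk⟩ := h3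
      have hk' : z ^ k = (⟨x * (z : X) * x⁻¹, hxz⟩ : pCore 2 X) := hk
      have h4 : z ^ k = z := by
        rcases Int.even_or_odd' k with ⟨m, rfl | rfl⟩
        · exfalso
          have h5 : z ^ (2 * m) = 1 := by rw [zpow_mul, zpow_ofNat, pow_two, hzz, one_zpow]
          rw [h5] at hk'
          rw [← hk', orderOf_one] at h1
          norm_num at h1
        · rw [zpow_add, zpow_mul, zpow_ofNat, pow_two, hzz, one_zpow, one_mul, zpow_one]
      rw [h4] at hk'
      have h5 : (z : X) = x * (z : X) * x⁻¹ := congrArg Subtype.val hk'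
      calc (z : X) * x = (x * (z : X) * x⁻¹) * x := by rw [← h5]
        _ = x * z := by group
    have hmod := CfsgLib.TransAb.card_modEq_centralizer (q := p) (zpowers x) (pCore 2 X)
      (IsPGroup.of_card (n := 1) (by rw [Nat.card_zpowers, hxo, pow_one]))
      (by rw [normalizer_eq_top]; exact le_top)
    obtain ⟨T, hT⟩ : ∃ T : Subgroup X, T = pCore 2 X ⊓ centralizer ((zpowers x : Subgroup X) : Set X) := ⟨_, rfl⟩
    rw [← hT, hRc] at hmod
    have hTle : T ≤ pCore 2 X := by rw [hT]; exact inf_le_left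
    have hTd : Nat.card T ∣ 2 ^ 3 := by
      have := Subgroup.card_dvd_of_le hTle
      rw [hRc] at this
      exact this
    have hzT : (z : X) ∈ T := by
      rw [hT]
      refine ⟨z.2, ?_⟩
      change (z : X) ∈ centralizer ((zpowers x : Subgroup X) : Set X)
      rw [mem_centralizer_iff]
      rintro _ ⟨k, rfl⟩
      exact ((show Commute x (z : X) from hzx.symm).zpow_left k)
    obtain ⟨k, hk, hkT⟩ := (Nat.dvd_prime_pow Nat.prime_two).1 hTd
    have hp2 : p ≠ 2 := Ne.symm hrp
    have hTR : T = pCore 2 X := by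
      apply Subgroup.eq_of_le_of_card_ge hTle
      rw [hRc, hkT]
      interval_cases k
      · exfalso
        have h1 : T = ⊥ := Subgroup.card_eq_one.1 (by rw [hkT, pow_zero])
        rw [h1, mem_bot] at hzT
        exact hz1 (Subtype.ext hzT)
      · exfalso
        rw [hkT] at hmod
        have h1 : p ∣ 8 - 2 ^ 1 := (Nat.modEq_iff_dvd' (by norm_num)).1 hmod.symm
        have h2 : p ∣ 2 * 3 := by simpa using h1
        rcases (Nat.Prime.dvd_mul hp.out).1 h2 with h3 | h3
        · exact hp2 ((Nat.prime_dvd_prime_iff_eq hp.out Nat.prime_two).1 h3)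
        · exact hp3 ((Nat.prime_dvd_prime_iff_eq hp.out Nat.prime_three).1 h3)
      · exfalso
        rw [hkT] at hmod
        have h1 : p ∣ 8 - 2 ^ 2 := (Nat.modEq_iff_dvd' (by norm_num)).1 hmod.symm
        have h2 : p ∣ 2 * 2 := by simpa using h1
        rcases (Nat.Prime.dvd_mul hp.out).1 h2 with h3 | h3
        · exact hp2 ((Nat.prime_dvd_prime_iff_eq hp.out Nat.prime_two).1 h3)
        · exact hp2 ((Nat.prime_dvd_prime_iff_eq hp.out Nat.prime_two).1 h3)
      · norm_num
    intro q hq
    rw [← hTR, hT] at hq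
    exact (mem_centralizer_iff.1 hq.2 x (mem_zpowers x))
  -- `x` centralizes the Fitting subgroup
  have hxF : x ∈ centralizer (fittingSubgroup X : Set X) := by
    have h1 : fittingSubgroup X ≤ centralizer ({x} : Set X) := by
      rw [CfsgLib.Cores.fittingSubgroup_eq_iSup_pCore]
      refine iSup_le fun r => ?_
      intro q hq
      rw [mem_centralizer_singleton_iff]
      exact (hcent r r.2 q hq).symm
    rw [mem_centralizer_iff]
    intro q hq
    exact mem_centralizer_singleton_iff.1 (h1 hq)
  have hxF' := CfsgLib.Cores.centralizer_fittingSubgroup_le hxF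
  have h1 := CfsgLib.Cores.not_dvd_relIndex_pCore_of_normal_nilpotent hp.out (fittingSubgroup X)
    CfsgLib.Cores.fittingSubgroup_isNilpotent
  rw [hcore, Subgroup.relIndex_bot_left] at h1
  apply h1
  rw [← hxo]
  have h2 : zpowers x ≤ fittingSubgroup X := (zpowers_le).2 hxF'
  have h3 := Subgroup.card_dvd_of_le h2
  rwa [Nat.card_zpowers] at h3

end CfsgLib.Ggs
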