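import Mathlib
import Cfsg.Agent.LibGgs3
import Cfsg.Agent.LibGag19
import Cfsg.Agent.LibNpc9
import Cfsg.Agent.LibTransNil
import Cfsg.Agent.LibSolvNilp

/-!
# Characters that are nonzero on two classes: solvable groups (helper17)
-/

set_option autoImplicit false
set_option linter.all false

namespace CfsgLib.Ggs

open Subgroup Cfsg CfsgLib.Gag19
open scoped commutatorElement

universe u

theorem final {G : Type u} [Group G] [Finite G] [hs : Group.IsSolvable G] (hG : 2 < Nat.card G) (χ : IrrCharacter G)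
    (hχ : Nat.card {C : ConjClasses G // ∃ g ∈ C.carrier, (χ : G → ℂ) g ≠ 0} = 2) :
    ∃ p : ℕ, p.Prime ∧ (∀ q : ℕ, q.Prime → (pCore q G ≠ ⊥ ↔ q = p)) ∧
      HasNormalPComplement p (G ⧸ pCore p G) ∧ ∀ Q : Sylow p (G ⧸ pCore p G),
        IsMulCommutative (Q : Subgroup (G ⧸ pCore p G)) := by
  classical
  haveI : Fintype G := Fintype.ofFinite G
  obtain ⟨N, k, m, h⟩ := exists_data hG χ hχ
  have hNn := h.normal
  have hN1 := h.ne_bot
  obtain ⟨p, hp, hel⟩ := h.elem
  haveI : Fact p.Prime := ⟨hp⟩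
  have hNp : IsPGroup p N := by
    intro n
    refine ⟨1, ?_⟩
    apply Subtype.ext
    push_cast
    rw [pow_one]
    exact hel.2 n n.2
  have hNU : N ≤ pCore p G := CfsgLib.Cores.le_pCore hNn hNp
  obtain ⟨a, ha⟩ := h.m_pow χ.2 hNp
  obtain ⟨b, hb⟩ := IsPGroup.iff_card.1 hNp
  have hcent : ∀ x ∈ N, x ≠ 1 → IsPGroup p (centralizer ({x} : Set G)) := by
    intro x hx hx1
    apply IsPGroup.of_card (n := 2 * a + b)
    rw [h.cent x hx hx1, ← h.cardN, hb, ha, pow_add, pow_mul']
  obtain ⟨y₀, hy₀⟩ := Subgroup.ne_bot_iff_exists_ne_one.1 hN1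
  obtain ⟨n₀, hn₀, hn₀1⟩ : ∃ n₀ : G, n₀ ∈ N ∧ n₀ ≠ 1 := ⟨(y₀ : G), y₀.2, fun h' => hy₀ (Subtype.ext h')⟩
  have hconj := h.conjN
  refine ⟨p, hp, ?_, ?_⟩
  · intro q hq
    constructor
    · intro hne
      have h1 : N ≤ pCore q G := h.minimal χ.2 _ inferInstance hne
      haveI : Fact q.Prime := ⟨hq⟩
      obtain ⟨c, hc⟩ := IsPGroup.iff_orderOf.1 (CfsgLib.Cores.pCore_isPGroup (G := G) q) ⟨n₀, h1 hn₀⟩
      rw [Subgroup.orderOf_mk] at hc
      have h2 : orderOf n₀ ∣ p := orderOf_dvd_of_pow_eq_one (hel.2 n₀ hn₀)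
      rcases (Nat.dvd_prime hp).1 h2 with h3 | h3
      · exact absurd (orderOf_eq_one_iff.1 h3) hn₀1
      · rw [h3] at hc
        have h4 : p ∣ q ^ c := by rw [← hc]
        exact ((Nat.prime_dvd_prime_iff_eq hp hq).1 (hp.dvd_of_dvd_pow h4)).symm
    · rintro rfl
      intro h1
      rw [h1, le_bot_iff] at hNU
      exact hN1 hNU
  -- `U` centralizes `N`
  have hUN : ∀ u ∈ pCore p G, ∀ n ∈ N, u * n = n * u := by
    haveI : Group.IsNilpotent (pCore p G) := (CfsgLib.Cores.pCore_isPGroup (G := G) p).isNilpotent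
    have h1 : N.subgroupOf (pCore p G) ≠ ⊥ := by
      intro h2
      rw [Subgroup.subgroupOf_eq_bot, disjoint_iff, inf_eq_left.2 hNU] at h2
      exact hN1 h2
    have h2 := CfsgLib.SolvNilp.inf_center_ne_bot (N.subgroupOf (pCore p G)) h1
    obtain ⟨⟨z, hz⟩, hz1⟩ := Subgroup.ne_bot_iff_exists_ne_one.1 h2
    have hzN : (z : G) ∈ N := mem_subgroupOf.1 hz.1
    have hz1' : (z : G) ≠ 1 := fun h' => hz1 (Subtype.ext (Subtype.ext h'))
    intro u hu n hn
    by_cases hn1 : n = 1
    · rw [hn1, mul_one, one_mul]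
    obtain ⟨g, hg⟩ := hconj _ hzN n hn hz1' hn1
    have hu' : g⁻¹ * u * g ∈ pCore p G := by
      have := (inferInstance : (pCore p G).Normal).conj_mem u hu g⁻¹
      rwa [inv_inv] at this
    have h3 : (g⁻¹ * u * g) * (z : G) = z * (g⁻¹ * u * g) :=
      congrArg Subtype.val ((mem_center_iff.1 hz.2) ⟨_, hu'⟩)
    rw [← hg]
    calc u * (g * z * g⁻¹) = g * ((g⁻¹ * u * g) * z) * g⁻¹ := by group
      _ = (g * z * g⁻¹) * u := by rw [h3]; group
  have hker : ∀ u ∈ pCore p G, MulAut.conjNormal (H := N) u = 1 := by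
    intro u hu
    ext n
    rw [MulAut.conjNormal_apply, MulAut.one_apply, hUN u hu n n.2, mul_inv_cancel_right]
  let ψ : G ⧸ pCore p G →* MulAut N := QuotientGroup.lift (pCore p G) MulAut.conjNormal hker
  have hψ : ∀ (g : G) (n : N), ((ψ (QuotientGroup.mk' (pCore p G) g) n : N) : G) = g * n * g⁻¹ := by
    intro g n
    exact MulAut.conjNormal_apply g n
  haveI hNc := hel.1
  letI : CommGroup N := { (inferInstance : Group N) with mul_comm := hNc.is_comm.comm }
  letI act : DistribMulAction (G ⧸ pCore p G) (Additive N) :=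
    { smul := fun x v => Additive.ofMul (ψ x (Additive.toMul v))
      one_smul := fun v => by
        change Additive.ofMul (ψ 1 (Additive.toMul v)) = v
        rw [map_one]; rfl
      mul_smul := fun x y v => by
        change Additive.ofMul (ψ (x * y) (Additive.toMul v)) = Additive.ofMul (ψ x (ψ y (Additive.toMul v)))
        rw [map_mul]; rfl
      smul_zero := fun x => by
        change Additive.ofMul (ψ x 1) = 0
        rw [map_one]; rfl
      smul_add := fun x v w => by
        change Additive.ofMul (ψ x (Additive.toMul v * Additive.toMul w)) = _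
        rw [map_mul]; rfl }
  have hsm : ∀ (g : G) (v : Additive N), ((Additive.toMul ((QuotientGroup.mk' (pCore p G) g) • v) : N) : G) =
      g * ((Additive.toMul v : N) : G) * g⁻¹ := fun g v => hψ g _
  have hmain : ¬ p ∣ Nat.card (commutator (G ⧸ pCore p G)) := by
    refine main (V := Additive N) (p := p) ?_ ?_ ?_ ?_ ?_ (CfsgLib.Cores.pCore_quotient_pCore p)
    · intro v
      apply Additive.toMul.injective
      change (Additive.toMul v) ^ p = 1
      apply Subtype.ext
      push_cast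
      exact hel.2 _ (Additive.toMul v).2
    · intro x hx
      obtain ⟨g, rfl⟩ := QuotientGroup.mk'_surjective _ x
      have h1 : g ∈ centralizer (N : Set G) := by
        rw [mem_centralizer_iff]
        intro n hn
        have h2 := hsm g (Additive.ofMul ⟨n, hn⟩)
        rw [hx] at h2
        have h3 : n = g * n * g⁻¹ := h2
        calc n * g = (g * n * g⁻¹) * g := by rw [← h3]
          _ = g * n := by group
      have h2 : centralizer (N : Set G) ≤ pCore p G := by
        apply CfsgLib.Cores.le_pCore inferInstance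
        exact (hcent n₀ hn₀ hn₀1).to_le (Subgroup.centralizer_le (by simpa using hn₀))
      exact (QuotientGroup.eq_one_iff g).2 (h2 h1)
    · intro v w hv hw
      obtain ⟨g, hg⟩ := hconj _ (Additive.toMul v).2 _ (Additive.toMul w).2
        (fun h' => hv (Additive.toMul.injective (Subtype.ext h')))
        (fun h' => hw (Additive.toMul.injective (Subtype.ext h')))
      refine ⟨QuotientGroup.mk' (pCore p G) g, ?_⟩
      apply Additive.toMul.injective
      apply Subtype.ext
      rw [hsm, hg]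
    · intro x hxo hx1 v hv
      obtain ⟨g, rfl⟩ := QuotientGroup.mk'_surjective _ x
      by_contra hv0
      apply hx1
      have h1 := hsm g v
      rw [hv] at h1
      have h2 : g ∈ centralizer ({((Additive.toMul v : N) : G)} : Set G) := by
        rw [mem_centralizer_singleton_iff]
        calc g * ((Additive.toMul v : N) : G) = (g * ((Additive.toMul v : N) : G) * g⁻¹) * g := by group
          _ = _ := by rw [← h1]
      have h3 := hcent _ (Additive.toMul v).2 (fun h' => hv0 (Additive.toMul.injective (Subtype.ext h')))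
      obtain ⟨c, hc⟩ := IsPGroup.iff_orderOf.1 h3 ⟨g, h2⟩
      rw [Subgroup.orderOf_mk] at hc
      have h4 : orderOf (QuotientGroup.mk' (pCore p G) g) ∣ p ^ c := by rw [← hc]; exact orderOf_map_dvd _ g
      have h5 : (orderOf (QuotientGroup.mk' (pCore p G) g)).Coprime (p ^ c) := Nat.Coprime.pow_right c hxo
      exact orderOf_eq_one_iff.1 (Nat.Coprime.eq_one_of_dvd h5 h4)
    · exact ⟨Additive.ofMul ⟨n₀, hn₀⟩, fun h' => hn₀1 (congrArg (fun t : Additive N => ((Additive.toMul t : N) : G)) h')⟩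
  have hcop : (Nat.card (commutator (G ⧸ pCore p G))).Coprime p := ((Nat.Prime.coprime_iff_not_dvd hp).2 hmain).symm
  constructor
  · refine CfsgLib.Npc9.hnpc_of_quotient_coprime (commutator (G ⧸ pCore p G)) hcop ?_
    apply CfsgLib.TransNil.hasNPC_of_comm
    intro x y
    exact mul_comm (G := Abelianization (G ⧸ pCore p G)) x y
  · intro Q
    refine ⟨⟨fun x y => ?_⟩⟩
    have h1 : ⁅(x : G ⧸ pCore p G), (y : G ⧸ pCore p G)⁆ ∈ commutator (G ⧸ pCore p G) :=
      commutator_mem_commutator (mem_top _) (mem_top _)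
    have h2 : ⁅(x : G ⧸ pCore p G), (y : G ⧸ pCore p G)⁆ ∈ (Q : Subgroup (G ⧸ pCore p G)) := by
      rw [commutatorElement_def]
      exact Subgroup.mul_mem _ (Subgroup.mul_mem _ (Subgroup.mul_mem _ x.2 y.2) (Subgroup.inv_mem _ x.2))
        (Subgroup.inv_mem _ y.2)
    obtain ⟨c, hc⟩ := IsPGroup.iff_orderOf.1 Q.isPGroup' ⟨_, h2⟩
    rw [Subgroup.orderOf_mk] at hc
    have h3 : orderOf ⁅(x : G ⧸ pCore p G), (y : G ⧸ pCore p G)⁆ ∣ Nat.card (commutator (G ⧸ pCore p G)) := by
      rw [← Subgroup.orderOf_mk _ h1]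
      exact orderOf_dvd_natCard _
    rw [hc] at h3
    have h4 : p ^ c = 1 := Nat.Coprime.eq_one_of_dvd (Nat.Coprime.symm (Nat.Coprime.pow_right c hcop)) h3
    rw [h4, orderOf_eq_one_iff, commutatorElement_eq_one_iff_mul_comm] at hc
    exact Subtype.ext hc

end CfsgLib.Ggs
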