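import Cfsg.Agent.LibGlaub2
import Cfsg.Agent.LibGalChar
/-!
# Glauberman correspondence and complex conjugation (helper20)
-/
set_option autoImplicit false
set_option linter.all false
open scoped ComplexConjugate
open Cfsg
namespace CfsgLib.Glaub3
open CfsgLib CfsgLib.CharBasic CfsgLib.CharIndA CfsgLib.Clifford CfsgLib.Glaub CfsgLib.Glaub2

universe u v w

section Real
variable {G : Type u} [Group G] [Fintype G]
variable {A : Type v} [Group A] [Finite A] (φ : A →* MulAut G) (C : Subgroup G) [Fintype C] (hC : C = fix φ)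
  {p : ℕ} (hp : p.Prime) (hA : IsPGroup p A) (hG : ¬ p ∣ Nat.card G)

theorem star_conj {χ : G → ℂ} {β : C → ℂ} (h : Glaub.Star C p χ β) :
    Glaub.Star C p (fun g => conj (χ g)) (fun c => conj (β c)) := by
  obtain ⟨m, hm, hmp⟩ := h
  refine ⟨m, ?_, hmp⟩
  have h1 := inner_conj_conj (fun c : C => χ c) β
  rw [hm] at h1
  rw [h1]; simp

theorem im_zero_iff (z : ℂ) : z.im = 0 ↔ conj z = z := by
  rw [Complex.conj_eq_iff_im]

include hC hp hA hG in
theorem real_iff {χ : G → ℂ} (hχ : IsIrrCharacter G χ) (hi : Inv φ χ) {β : C → ℂ} (hβ : IsIrrCharacter C β)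
    (h : Glaub.Star C p χ β) : (∀ g, (χ g).im = 0) ↔ (∀ c, (β c).im = 0) := by
  have h1 := star_conj C h
  constructor
  · intro hr
    have h2 : (fun g => conj (χ g)) = χ := by
      ext g; exact (im_zero_iff _).mp (hr g)
    rw [h2] at h1
    have h3 := star_right φ C hC hp hA hG hχ hi (isIrrCharacter_conj hβ) hβ h1 h
    intro c
    rw [im_zero_iff]
    exact congrFun h3 c
  · intro hr
    have h2 : (fun c => conj (β c)) = β := by
      ext c; exact (im_zero_iff _).mp (hr c)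
    rw [h2] at h1
    have h3 := star_left φ C hC hp hA hG (isIrrCharacter_conj hχ) hχ (fun a g => by rw [hi a g]) hi hβ h1 h
    intro g
    rw [im_zero_iff]
    exact congrFun h3 g

include hp hA hG in
theorem card_real_inv : Nat.card {χ : IrrCharacter G // (∀ g, ((χ : G → ℂ) g).im = 0) ∧ Inv φ (χ : G → ℂ)} =
    Nat.card {L : ConjClasses (fix φ) // ∀ c, ConjClasses.mk c = L → IsConj c c⁻¹} := by
  haveI := Fintype.ofFinite (fix φ)
  rw [← GalChar.card_real_irr]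
  apply card_eq_of_rel (fun χ β => Glaub.Star (fix φ) p (χ.1 : G → ℂ) (β.1 : _ → ℂ))
  · rintro ⟨χ, hr, hi⟩
    obtain ⟨β, hβ, hst⟩ := star_exists (fix φ) hp hG χ.2
    exact ⟨⟨⟨β, hβ⟩, (real_iff φ _ rfl hp hA hG χ.2 hi hβ hst).mp hr⟩, hst⟩
  · rintro ⟨β, hr⟩
    obtain ⟨χ, hχ, hi, hst⟩ := star_surj φ _ rfl hp hA hG β.2
    exact ⟨⟨⟨χ, hχ⟩, (real_iff φ _ rfl hp hA hG hχ hi β.2 hst).mpr hr, hi⟩, hst⟩
  · rintro ⟨χ, hr, hi⟩ ⟨β, hβ⟩ ⟨β', hβ'⟩ h h'
    exact Subtype.ext (Subtype.ext (star_right φ _ rfl hp hA hG χ.2 hi β.2 β'.2 h h'))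
  · rintro ⟨χ, hr, hi⟩ ⟨χ', hr', hi'⟩ ⟨β, hβ⟩ h h'
    exact Subtype.ext (Subtype.ext (star_left φ _ rfl hp hA hG χ.2 χ'.2 hi hi' β.2 h h'))

include hp hA hG in
theorem card_real_inv_classes : Nat.card {K : ConjClasses G // (∀ g, ConjClasses.mk g = K → IsConj g g⁻¹) ∧
      ∀ a, ∀ g : G, ConjClasses.mk g = K → ConjClasses.mk (φ a g) = K} =
    Nat.card {L : ConjClasses (fix φ) // ∀ c, ConjClasses.mk c = L → IsConj c c⁻¹} := by
  haveI := Fintype.ofFinite (fix φ)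
  symm
  apply card_eq_of_rel (fun L K => ∃ c : fix φ, ConjClasses.mk c = L.1 ∧ ConjClasses.mk (c : G) = K.1)
  · rintro ⟨L, hL⟩
    obtain ⟨c, rfl⟩ := ConjClasses.exists_rep L
    refine ⟨⟨ConjClasses.mk (c : G), ?_, ?_⟩, c, rfl, rfl⟩
    · intro g hg
      rw [ConjClasses.mk_eq_mk_iff_isConj] at hg
      have h1 : IsConj (c : G) (c : G)⁻¹ := by
        have := (fix φ).subtype.map_isConj (hL c rfl)
        simpa using this
      obtain ⟨x, hx⟩ := isConj_iff.mp hg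
      have h2 : IsConj (c : G)⁻¹ g⁻¹ := by
        rw [← hx]
        apply IsConj.symm
        refine isConj_iff.mpr ⟨x, ?_⟩
        group
      exact (hg.trans h1).trans h2
    · intro a g hg
      rw [ConjClasses.mk_eq_mk_iff_isConj] at hg ⊢
      have h1 := (φ a).toMonoidHom.map_isConj hg
      have h2 : (φ a).toMonoidHom (c : G) = c := c.2 a
      rwa [h2] at h1
  · rintro ⟨K, hK, hK'⟩
    obtain ⟨g, rfl⟩ := ConjClasses.exists_rep K
    obtain ⟨c, hc⟩ := Glaub.exists_in_fix φ (fix φ) rfl hp hA hG (g := g) (fun a => by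
      have := hK' a g rfl
      rw [ConjClasses.mk_eq_mk_iff_isConj] at this
      exact this.symm)
    refine ⟨⟨ConjClasses.mk c, ?_⟩, c, rfl, ?_⟩
    · intro d hd
      rw [ConjClasses.mk_eq_mk_iff_isConj] at hd
      apply Glaub.conj_in_fix φ (fix φ) rfl hp hA hG
      have h1 := hK d (by
        rw [ConjClasses.mk_eq_mk_iff_isConj]
        have := (fix φ).subtype.map_isConj hd
        exact IsConj.trans this hc.symm)
      simpa using h1
    · rw [ConjClasses.mk_eq_mk_iff_isConj]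
      exact hc.symm
  · rintro ⟨L, hL⟩ ⟨K, hK⟩ ⟨K', hK'⟩ ⟨c, hc, hc'⟩ ⟨d, hd, hd'⟩
    apply Subtype.ext
    dsimp only at hc hc' hd hd' ⊢
    rw [← hc', ← hd', ConjClasses.mk_eq_mk_iff_isConj]
    rw [← hd, ConjClasses.mk_eq_mk_iff_isConj] at hc
    exact (fix φ).subtype.map_isConj hc
  · rintro ⟨L, hL⟩ ⟨L', hL'⟩ ⟨K, hK⟩ ⟨c, hc, hc'⟩ ⟨d, hd, hd'⟩
    apply Subtype.ext
    dsimp only at hc hc' hd hd' ⊢
    rw [← hc, ← hd, ConjClasses.mk_eq_mk_iff_isConj]
    rw [← hd', ConjClasses.mk_eq_mk_iff_isConj] at hc'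
    exact Glaub.conj_in_fix φ (fix φ) rfl hp hA hG hc'

end Real
end CfsgLib.Glaub3
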