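import Cfsg.Agent.LibGthree1
import Cfsg.Agent.S1055
import Cfsg.Agent.S1059
import Cfsg.Agent.S1077
import Cfsg.Agent.S1078

/-!
The `7`-dimensional representation of `G₂(3)`.
-/

set_option autoImplicit false
set_option linter.all false
set_option maxRecDepth 100000

namespace CfsgLib.Gthree

open CfsgLib.TC CfsgLib.MC Cfsg.Lie Matrix

/-! ### the invariant trilinear form -/

section tri
variable {R : Type*} [CommSemiring R]

def D3 (i j k : Fin 7) (u v w : Fin 7 → R) : R :=
  u i * v j * w k + v i * w j * u k + w i * u j * v k +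
    2 * (u i * w j * v k + v i * u j * w k + w i * v j * u k)

def tri (u v w : Fin 7 → R) : R :=
  2 * D3 0 3 6 u v w + D3 0 4 5 u v w + D3 1 2 6 u v w + 2 * D3 1 3 5 u v w + D3 2 3 4 u v w

theorem tri_cyc (u v w : Fin 7 → R) : tri u v w = tri v w u := by
  unfold tri D3; ring

theorem tri_add (u u' v w : Fin 7 → R) : tri (u + u') v w = tri u v w + tri u' v w := by
  unfold tri D3
  simp only [Pi.add_apply]
  ring

theorem tri_smul (c : R) (u v w : Fin 7 → R) : tri (c • u) v w = c * tri u v w := by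
  unfold tri D3
  simp only [Pi.smul_apply, smul_eq_mul]
  ring

end tri

def triL (v w : Fin 7 → F3) : (Fin 7 → F3) →ₗ[F3] F3 where
  toFun u := tri u v w
  map_add' u u' := tri_add u u' v w
  map_smul' c u := tri_smul c u v w

abbrev eb (a : Fin 7) : Fin 7 → F3 := Pi.single a 1

theorem lin_ext (M : M7) (p q p' q' : Fin 7 → F3)
    (h : ∀ a, tri (M *ᵥ eb a) p q = tri (eb a) p' q') (u : Fin 7 → F3) : tri (M *ᵥ u) p q = tri u p' q' := by
  have h1 : (triL p q).comp M.mulVecLin = triL p' q' := by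
    apply LinearMap.pi_ext'
    intro a
    ext
    exact h a
  exact congrArg (fun f : (Fin 7 → F3) →ₗ[F3] F3 => f u) h1

def PresM (M : M7) : Prop := ∀ u v w : Fin 7 → F3, tri (M *ᵥ u) (M *ᵥ v) (M *ᵥ w) = tri u v w

theorem pres_of_basis (M : M7) (h : ∀ a b d, tri (M *ᵥ eb a) (M *ᵥ eb b) (M *ᵥ eb d) = tri (eb a) (eb b) (eb d)) :
    PresM M := by
  intro u v w
  apply lin_ext
  intro a
  rw [tri_cyc, tri_cyc (eb a)]
  apply lin_ext
  intro b
  rw [tri_cyc, tri_cyc (eb b)]
  apply lin_ext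
  intro d
  exact h d a b

/-! ### the same on codes -/

noncomputable def eN (c : ℕ) (a : Fin 7) (i : Fin 7) : ℕ := dig 3 c (7 * i.1 + a.1)

def iN (a : Fin 7) (i : Fin 7) : ℕ := if i = a then 1 else 0

theorem cast_tri (u v w : Fin 7 → ℕ) : ((tri u v w : ℕ) : F3) =
    tri (fun i => (u i : F3)) (fun i => (v i : F3)) (fun i => (w i : F3)) := by
  unfold tri D3
  push_cast
  ring

theorem tM_col (c : ℕ) (a : Fin 7) : tM c *ᵥ eb a = fun i => ((eN c a i : ℕ) : F3) := by
  funext i
  rw [Matrix.mulVec_single_one]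
  rfl

theorem eb_eq (a : Fin 7) : eb a = fun i => ((iN a i : ℕ) : F3) := by
  funext i
  unfold eb iN
  rw [Pi.single_apply]
  split_ifs <;> simp

theorem gen_chk : ∀ (r : Fin 12) (a b d : Fin 7),
    (tri (eN (mX r.1 1) a) (eN (mX r.1 1) b) (eN (mX r.1 1) d)) % 3 = (tri (iN a) (iN b) (iN d)) % 3 := by
  decide +kernel

theorem pres_one (r : Fin 12) : PresM (tM (mX r.1 1)) := by
  apply pres_of_basis
  intro a b d
  rw [tM_col, tM_col, tM_col, eb_eq, eb_eq, eb_eq, ← cast_tri, ← cast_tri]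
  exact (ZMod.natCast_eq_natCast_iff _ _ 3).2 (gen_chk r a b d)

theorem pres_mul {M N : M7} (hM : PresM M) (hN : PresM N) : PresM (M * N) := by
  intro u v w
  rw [← Matrix.mulVec_mulVec, ← Matrix.mulVec_mulVec, ← Matrix.mulVec_mulVec, hM, hN]

def PS : Subgroup M7ˣ where
  carrier := {u | PresM (u : M7)}
  one_mem' := by
    intro u v w
    rw [Units.val_one, Matrix.one_mulVec, Matrix.one_mulVec, Matrix.one_mulVec]
  mul_mem' := fun ha hb => pres_mul ha hb
  inv_mem' := by
    intro a ha u v w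
    have h := ha (((a⁻¹ : M7ˣ) : M7) *ᵥ u) (((a⁻¹ : M7ˣ) : M7) *ᵥ v) (((a⁻¹ : M7ˣ) : M7) *ᵥ w)
    rw [Matrix.mulVec_mulVec, Matrix.mulVec_mulVec, Matrix.mulVec_mulVec, Units.mul_inv, Matrix.one_mulVec,
      Matrix.one_mulVec, Matrix.one_mulVec] at h
    exact h.symm

theorem gX_one_mem (r : Fin 12) : gX r 1 ∈ PS := pres_one r

theorem gX_mem (r : Fin 12) (t : F3) : gX r t ∈ PS := by
  have h2 : gX r 2 = gX r 1 * gX r 1 := by
    apply Units.ext
    change tM _ = tM _ * tM _
    rw [← tM_mul]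
    exact congrArg tM (Nat.eq_of_beq_eq_true (r1 r 1 1)).symm
  have h0 : gX r 0 = gX r 1 * gX r 2 := by
    apply Units.ext
    change tM _ = tM _ * tM _
    rw [← tM_mul]
    exact congrArg tM (Nat.eq_of_beq_eq_true (r1 r 1 2)).symm
  have m1 := gX_one_mem r
  have m2 : gX r 2 ∈ PS := by rw [h2]; exact PS.mul_mem m1 m1
  have m0 : gX r 0 ∈ PS := by rw [h0]; exact PS.mul_mem m1 m2
  fin_cases t
  · exact m0
  · exact m1
  · exact m2

section rep

variable {F : Type*} [Field F] (σ : F ≃+* F3)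

/-- generators -/
noncomputable def ff (p : Fin chevG2.nroots × F) : M7ˣ := gX ⟨p.1.1, p.1.2⟩ (σ p.2)

noncomputable def lf : FreeGroup (Fin chevG2.nroots × F) →* M7ˣ := FreeGroup.lift (ff σ)

theorem lf_X (r : ℕ) (h : r < 12) (t : F) : lf σ (chevG2.stX r t) = gX ⟨r, h⟩ (σ t) := by
  have h' : r < chevG2.nroots := h
  unfold ChevalleyDatum.stX lf
  rw [dif_pos h', FreeGroup.lift_apply_of]
  rfl

noncomputable def mw (w : List (ℕ × F)) : List (ℕ × F3) := w.map fun p => (p.1, σ p.2)

theorem wC_cons (p : ℕ × F3) (w : List (ℕ × F3)) : wC (p :: w) = mC (mX p.1 p.2.val) (wC w) := rfl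

theorem lf_word (w : List (ℕ × F)) (hw : ∀ p ∈ w, p.1 < 12) :
    ((lf σ (chevG2.stWord w) : M7ˣ) : M7) = tM (wC (mw σ w)) := by
  induction w with
  | nil =>
    have h1 : chevG2.stWord ([] : List (ℕ × F)) = 1 := rfl
    rw [h1, map_one, Units.val_one]
    exact tM_one.symm
  | cons p w ih =>
    have h1 : chevG2.stWord (p :: w) = chevG2.stX p.1 p.2 * chevG2.stWord w := by
      unfold ChevalleyDatum.stWord
      rw [List.map_cons, List.prod_cons]
    have h2 : mw σ (p :: w) = (p.1, σ p.2) :: mw σ w := rfl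
    rw [h1, map_mul, Units.val_mul, ih (fun q hq => hw q (List.mem_cons_of_mem _ hq)),
      lf_X σ p.1 (hw p List.mem_cons_self) p.2, h2, wC_cons, tM_mul]
    rfl

theorem mw_comm (r s : ℕ) (t u : F) : mw σ (chevG2.commWord F r s t u) = chevG2.commWord F3 r s (σ t) (σ u) := by
  unfold mw ChevalleyDatum.commWord
  rw [List.map_map]
  apply List.map_congr_left
  intro c _
  simp

theorem mw_h (r : ℕ) (t : F) : mw σ (chevG2.hWord r t) = chevG2.hWord r (σ t) := by
  unfold mw ChevalleyDatum.hWord ChevalleyDatum.nWord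
  simp

theorem mw_append (w v : List (ℕ × F)) : mw σ (w ++ v) = mw σ w ++ mw σ v := by
  unfold mw; simp

theorem hw_lt (r : ℕ) (h : r < 12) (t : F) : ∀ p ∈ chevG2.hWord r t, p.1 < 12 := by
  have h2 := negw ⟨r, h⟩
  intro p hp
  unfold ChevalleyDatum.hWord ChevalleyDatum.nWord at hp
  simp only [List.cons_append, List.nil_append, List.mem_cons, List.not_mem_nil, or_false] at hp
  rcases hp with rfl | rfl | rfl | rfl | rfl | rfl <;> first | exact h | exact h2

theorem stWord_append (w v : List (ℕ × F)) :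
    chevG2.stWord (w ++ v) = chevG2.stWord w * chevG2.stWord v := by
  unfold ChevalleyDatum.stWord
  rw [List.map_append, List.prod_append]

theorem rels : ∀ g ∈ chevG2.steinbergRels F, lf σ g = 1 := by
  rintro g ((⟨r, t, u, hr, rfl⟩ | ⟨r, s, t, u, hr, hs, h1, h2, rfl⟩) | ⟨r, t, u, hr, ht, hu, rfl⟩)
  · have hr' : r < 12 := hr
    rw [map_mul, map_mul, map_inv, mul_inv_eq_one, lf_X σ r hr', lf_X σ r hr', lf_X σ r hr', map_add]
    apply Units.ext
    change tM _ * tM _ = tM _
    rw [← tM_mul]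
    exact congrArg tM (Nat.eq_of_beq_eq_true (r1 ⟨r, hr'⟩ (σ t) (σ u)))
  · have hr' : r < 12 := hr
    have hs' : s < 12 := hs
    have key : lf σ (chevG2.stWord [(s, u), (r, t)]) =
        lf σ (chevG2.stWord ((r, t) :: (s, u) :: chevG2.commWord F r s t u)) := by
      apply Units.ext
      rw [lf_word, lf_word]
      · have h3 : mw σ [(s, u), (r, t)] = [(s, σ u), (r, σ t)] := rfl
        have h4 : mw σ ((r, t) :: (s, u) :: chevG2.commWord F r s t u) =
            (r, σ t) :: (s, σ u) :: chevG2.commWord F3 r s (σ t) (σ u) := by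
          rw [← mw_comm]; rfl
        rw [h3, h4]
        exact congrArg tM (Nat.eq_of_beq_eq_true (r2 ⟨r, hr'⟩ ⟨s, hs'⟩ (σ t) (σ u) h1 h2))
      · intro p hp
        rcases List.mem_cons.1 hp with rfl | hp
        · exact hr'
        · rcases List.mem_cons.1 hp with rfl | hp
          · exact hs'
          · unfold ChevalleyDatum.commWord at hp
            obtain ⟨c, hc, rfl⟩ := List.mem_map.1 hp
            exact r2w ⟨r, hr'⟩ ⟨s, hs'⟩ c hc
      · intro p hp
        rcases List.mem_cons.1 hp with rfl | hp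
        · exact hs'
        · rcases List.mem_cons.1 hp with rfl | hp
          · exact hr'
          · simp at hp
    have e1 : chevG2.stWord [(s, u), (r, t)] = chevG2.stX s u * chevG2.stX r t := by
      unfold ChevalleyDatum.stWord; simp
    have e2 : chevG2.stWord ((r, t) :: (s, u) :: chevG2.commWord F r s t u) =
        chevG2.stX r t * chevG2.stX s u * chevG2.stWord (chevG2.commWord F r s t u) := by
      unfold ChevalleyDatum.stWord
      rw [List.map_cons, List.map_cons, List.prod_cons, List.prod_cons, mul_assoc]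
    rw [e1, e2] at key
    simp only [map_mul, map_inv] at key ⊢
    rw [mul_inv_eq_one]
    calc (lf σ (chevG2.stX s u))⁻¹ * (lf σ (chevG2.stX r t))⁻¹ * lf σ (chevG2.stX s u) * lf σ (chevG2.stX r t)
        = (lf σ (chevG2.stX s u))⁻¹ * (lf σ (chevG2.stX r t))⁻¹ * (lf σ (chevG2.stX s u) * lf σ (chevG2.stX r t)) := by
          group
      _ = _ := by rw [key]; group
  · have hr' : r < 12 := hr
    rw [map_mul, map_mul, map_inv, mul_inv_eq_one]
    unfold ChevalleyDatum.stH
    rw [← map_mul, ← stWord_append]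
    apply Units.ext
    rw [lf_word, lf_word, mw_append, mw_h, mw_h, mw_h, map_mul]
    · exact congrArg tM (Nat.eq_of_beq_eq_true (r3 ⟨r, hr'⟩ (σ t) (σ u)
        ((map_ne_zero_iff σ σ.injective).2 ht) ((map_ne_zero_iff σ σ.injective).2 hu)))
    · exact hw_lt r hr' _
    · intro p hp
      rcases List.mem_append.1 hp with hp | hp
      · exact hw_lt r hr' _ p hp
      · exact hw_lt r hr' _ p hp

noncomputable def rho : chevG2.SteinbergGroup F →* M7ˣ := PresentedGroup.toGroup (f := ff σ) (rels σ)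

theorem rho_mk (x : FreeGroup (Fin chevG2.nroots × F)) :
    rho σ (PresentedGroup.mk (chevG2.steinbergRels F) x) = lf σ x := rfl

theorem rho_mem (x : chevG2.SteinbergGroup F) : rho σ x ∈ PS := by
  obtain ⟨y, rfl⟩ := PresentedGroup.mk_surjective (chevG2.steinbergRels F) x
  rw [rho_mk]
  have h : (lf σ).range ≤ PS := by
    rw [lf, FreeGroup.range_lift_eq_closure, Subgroup.closure_le]
    rintro _ ⟨p, rfl⟩
    exact gX_mem _ _
  exact h ⟨y, rfl⟩

include σ in
theorem exists_rep : ∃ ρ : ↥(chevG2.group F) →* M7ˣ, Function.Injective ρ ∧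
    (∀ g, PresM ((ρ g : M7ˣ) : M7)) ∧
    ∀ w : List (Fin 12 × F3), ∃ g : ↥(chevG2.group F), ((ρ g : M7ˣ) : M7) = tM (wC (w.map fun p => (p.1.1, p.2))) := by
  obtain ⟨θ, hs, hk, -⟩ := Cfsg.Agent.S1077.result (K := F) chevG2 (by simp)
  have hc := Cfsg.Agent.S1078.result (K := F) chevG2 (by simp)
  rw [hc] at hk
  have hi : Function.Injective θ := (MonoidHom.ker_eq_bot_iff θ).1 hk
  let e : chevG2.SteinbergGroup F ≃* ↥(chevG2.group F) := MulEquiv.ofBijective θ ⟨hi, hs⟩
  let ρ : ↥(chevG2.group F) →* M7ˣ := (rho σ).comp e.symm.toMonoidHom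
  have hw : ∀ w : List (Fin 12 × F3), ∃ g : ↥(chevG2.group F),
      ((ρ g : M7ˣ) : M7) = tM (wC (w.map fun p => (p.1.1, p.2))) := by
    intro w
    refine ⟨e (PresentedGroup.mk (chevG2.steinbergRels F)
      (chevG2.stWord (w.map fun p => (p.1.1, σ.symm p.2)))), ?_⟩
    have h1 : ρ (e (PresentedGroup.mk (chevG2.steinbergRels F)
      (chevG2.stWord (w.map fun p => (p.1.1, σ.symm p.2))))) =
      lf σ (chevG2.stWord (w.map fun p => (p.1.1, σ.symm p.2))) := by
      change rho σ (e.symm (e _)) = _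
      rw [MulEquiv.symm_apply_apply, rho_mk]
    rw [h1, lf_word]
    · congr 2
      unfold mw
      rw [List.map_map]
      apply List.map_congr_left
      intro p _
      simp
    · intro p hp
      obtain ⟨q, _, rfl⟩ := List.mem_map.1 hp
      exact q.1.2
  refine ⟨ρ, ?_, fun g => rho_mem σ _, hw⟩
  have hsimp : IsSimpleGroup ↥(chevG2.group F) := by
    apply (Cfsg.Agent.S1055.result (F := F) ?_).1
    refine ⟨σ.symm 2, ?_, ?_⟩
    · intro h
      have h2 : (2 : F3) = 0 := by rw [← σ.apply_symm_apply 2, h, map_zero]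
      exact absurd h2 (by decide)
    · intro h
      have h2 : (2 : F3) = 1 := by rw [← σ.apply_symm_apply 2, h, map_one]
      exact absurd h2 (by decide)
  rcases hsimp.eq_bot_or_eq_top_of_normal ρ.ker inferInstance with h | h
  · exact (MonoidHom.ker_eq_bot_iff ρ).1 h
  · exfalso
    obtain ⟨g, hg⟩ := hw [(6, 1)]
    have h1 : ρ g = 1 := by
      have : g ∈ ρ.ker := by rw [h]; trivial
      exact this
    rw [h1, Units.val_one] at hg
    have h2 := congrFun (congrFun hg 1) 2
    revert h2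
    decide +kernel

end rep

end CfsgLib.Gthree
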