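import Mathlib
import Cfsg.Agent.LibPermBasic

/-! Jordan sets in primitive and quasiprimitive groups (seat helper14). -/

set_option autoImplicit false

namespace CfsgLib.H14Jordan

open MulAction SubMulAction Pointwise

variable {G Ω : Type*} [Group G] [MulAction G Ω]

/-- Jordan set, in elementary form. -/
def JS (G : Type*) {Ω : Type*} [Group G] [MulAction G Ω] (Γ : Set Ω) : Prop :=
  ∀ x ∈ Γ, ∀ y ∈ Γ, ∃ g : G, (∀ z ∉ Γ, g • z = z) ∧ g • x = y

theorem js_iff {Γ : Set Ω} :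
    JS G Γ ↔ IsPretransitive (fixingSubgroup G Γᶜ) (ofFixingSubgroup G Γᶜ) := by
  constructor
  · intro h
    refine ⟨fun x y => ?_⟩
    have hx : (x : Ω) ∈ Γ := by
      have := x.2; rw [mem_ofFixingSubgroup_iff] at this; simpa using this
    have hy : (y : Ω) ∈ Γ := by
      have := y.2; rw [mem_ofFixingSubgroup_iff] at this; simpa using this
    obtain ⟨g, hg, hgx⟩ := h x hx y hy
    exact ⟨⟨g, (mem_fixingSubgroup_iff G).mpr (fun z hz => hg z hz)⟩, Subtype.ext hgx⟩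
  · intro h x hx y hy
    obtain ⟨g, hg⟩ := h.exists_smul_eq
      (⟨x, (mem_ofFixingSubgroup_iff G).mpr (by simpa using hx)⟩ : ofFixingSubgroup G Γᶜ)
      (⟨y, (mem_ofFixingSubgroup_iff G).mpr (by simpa using hy)⟩ : ofFixingSubgroup G Γᶜ)
    refine ⟨g, fun z hz => ?_, congrArg Subtype.val hg⟩
    exact (mem_fixingSubgroup_iff G).mp g.2 z hz

theorem JS.smul {Γ : Set Ω} (h : JS G Γ) (g : G) : JS G (g • Γ) := by
  rintro _ ⟨x, hx, rfl⟩ _ ⟨y, hy, rfl⟩
  obtain ⟨k, hk, hkx⟩ := h x hx y hy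
  refine ⟨g * k * g⁻¹, fun z hz => ?_, ?_⟩
  · have hz' : g⁻¹ • z ∉ Γ := fun hc => hz (Set.mem_smul_set_iff_inv_smul_mem.mpr hc)
    rw [mul_smul, mul_smul, hk _ hz', smul_inv_smul]
  · change (g * k * g⁻¹) • g • x = g • y
    rw [mul_smul, mul_smul, inv_smul_smul, hkx]

theorem JS.union {A B : Set Ω} (hA : JS G A) (hB : JS G B) (hAB : (A ∩ B).Nonempty) :
    JS G (A ∪ B) := by
  obtain ⟨c, hcA, hcB⟩ := hAB
  have key : ∀ x ∈ A ∪ B, ∃ g : G, (∀ z ∉ A ∪ B, g • z = z) ∧ g • x = c := by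
    rintro x (hx | hx)
    · obtain ⟨g, hg, hgx⟩ := hA x hx c hcA
      exact ⟨g, fun z hz => hg z (fun h => hz (Or.inl h)), hgx⟩
    · obtain ⟨g, hg, hgx⟩ := hB x hx c hcB
      exact ⟨g, fun z hz => hg z (fun h => hz (Or.inr h)), hgx⟩
  intro x hx y hy
  obtain ⟨g, hg, hgx⟩ := key x hx
  obtain ⟨k, hk, hky⟩ := key y hy
  refine ⟨k⁻¹ * g, fun z hz => ?_, ?_⟩
  · rw [mul_smul, hg z hz, inv_smul_eq_iff, hk z hz]
  · rw [mul_smul, hgx, inv_smul_eq_iff, hky]

/-- A block which meets both a Jordan set and its complement contains the Jordan set. -/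
theorem JS.subset_of_block {Γ B : Set Ω} (hJ : JS G Γ) (hB : IsBlock G B)
    (h1 : (B ∩ Γ).Nonempty) (h2 : (B \ Γ).Nonempty) : Γ ⊆ B := by
  obtain ⟨γ, hγB, hγΓ⟩ := h1
  obtain ⟨β, hβB, hβΓ⟩ := h2
  intro y hy
  obtain ⟨g, hg, hgγ⟩ := hJ γ hγΓ y hy
  have h3 : g • B = B := hB.smul_eq_of_mem hβB (by rw [hg β hβΓ]; exact hβB)
  rw [← h3, ← hgγ]
  exact Set.smul_mem_smul_set hγB

/-- In a quasiprimitive action, a Jordan set is never contained in a proper block. -/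
theorem not_subset_block [Finite Ω] [FaithfulSMul G Ω]
    (hqp : ∀ N : Subgroup G, N.Normal → N ≠ ⊥ → IsPretransitive ↥N Ω)
    {Γ : Set Ω} (hΓ1 : 1 < Γ.ncard) (hJ : JS G Γ) {B : Set Ω} (hB : IsBlock G B)
    (hBu : B ≠ Set.univ) : ¬ Γ ⊆ B := by
  intro hsub
  let N : Subgroup G :=
    { carrier := {g | ∀ h : G, g • (h • B) = h • B}
      mul_mem' := by
        intro a b ha hb h
        rw [mul_smul, hb h, ha h]
      one_mem' := by intro h; rw [one_smul]
      inv_mem' := by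
        intro a ha h
        rw [inv_smul_eq_iff, ha h] }
  have hN : N.Normal := by
    refine ⟨fun n hn g h => ?_⟩
    have := hn (g⁻¹ * h)
    rw [mul_smul, mul_smul]
    rw [mul_smul] at this
    rw [this, smul_inv_smul]
  rw [Set.one_lt_ncard] at hΓ1
  obtain ⟨x, hx, y, hy, hxy⟩ := hΓ1
  obtain ⟨j, hj, hjx⟩ := hJ x hx y hy
  have hjN : j ∈ N := by
    intro h
    rcases (hB.smul_eq_smul_or_disjoint (1 : G) h) with he | hd
    · rw [← he, one_smul]
      apply hB.smul_eq_of_mem (hsub hx)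
      rw [hjx]; exact hsub hy
    · rw [one_smul] at hd
      have hfix : ∀ z ∈ h • B, j • z = z := by
        intro z hz
        apply hj
        intro hzΓ
        exact (Set.disjoint_left.mp hd) (hsub hzΓ) hz
      ext z
      constructor
      · rintro ⟨w, hw, rfl⟩
        change j • w ∈ h • B
        rw [hfix w hw]; exact hw
      · intro hz
        exact ⟨z, hz, hfix z hz⟩
  have hne : N ≠ ⊥ := by
    intro hc
    rw [hc, Subgroup.mem_bot] at hjN
    rw [hjN, one_smul] at hjx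
    exact hxy hjx
  have ht := hqp N hN hne
  apply hBu
  rw [Set.eq_univ_iff_forall]
  intro z
  obtain ⟨n, hn⟩ := ht.exists_smul_eq x z
  have h1 := n.2 1
  rw [one_smul] at h1
  rw [← h1, ← hn]
  exact Set.smul_mem_smul_set (hsub hx)

theorem pretransitive_of_qp [FaithfulSMul G Ω]
    (hqp : ∀ N : Subgroup G, N.Normal → N ≠ ⊥ → IsPretransitive ↥N Ω)
    {Γ : Set Ω} (hΓ1 : 1 < Γ.ncard) (hJ : JS G Γ) : IsPretransitive G Ω := by
  rw [Set.one_lt_ncard (Set.finite_of_ncard_pos (by omega))] at hΓ1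
  obtain ⟨x, hx, y, hy, hxy⟩ := hΓ1
  obtain ⟨j, hj, hjx⟩ := hJ x hx y hy
  have hne : (⊤ : Subgroup G) ≠ ⊥ := by
    intro hc
    have : j ∈ (⊥ : Subgroup G) := hc ▸ Subgroup.mem_top j
    rw [Subgroup.mem_bot] at this
    rw [this, one_smul] at hjx
    exact hxy hjx
  have := hqp ⊤ inferInstance hne
  refine ⟨fun a b => ?_⟩
  obtain ⟨g, hg⟩ := this.exists_smul_eq a b
  exact ⟨g, hg⟩

theorem preprimitive_of_qp [Finite Ω] [FaithfulSMul G Ω]
    (hqp : ∀ N : Subgroup G, N.Normal → N ≠ ⊥ → IsPretransitive ↥N Ω)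
    {Γ : Set Ω} (hΓ1 : 1 < Γ.ncard)
    (hJp : IsPreprimitive ↥(fixingSubgroup G Γᶜ) ↥(ofFixingSubgroup G Γᶜ)) :
    IsPreprimitive G Ω := by
  have hJ : JS G Γ := js_iff.mpr hJp.toIsPretransitive
  have htr := pretransitive_of_qp hqp hΓ1 hJ
  refine { toIsPretransitive := htr, isTrivialBlock_of_isBlock := fun {B} hB => ?_ }
  rw [IsTrivialBlock]
  by_contra hc
  rw [not_or, Set.not_subsingleton_iff] at hc
  obtain ⟨⟨a, ha, b, hb, hab⟩, hBu⟩ := hc
  have hΓ1' := hΓ1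
  rw [Set.one_lt_ncard] at hΓ1'
  obtain ⟨x, hx, y, hy, hxy⟩ := hΓ1'
  obtain ⟨g, hg⟩ := exists_smul_eq G a x
  have hB1 : IsBlock G (g • B) := hB.translate g
  have hu1 : g • B ≠ Set.univ := by
    intro h
    apply hBu
    rw [smul_eq_iff_eq_inv_smul, Set.smul_set_univ] at h
    exact h
  have hx1 : x ∈ g • B := by rw [← hg]; exact Set.smul_mem_smul_set ha
  have hns := not_subset_block hqp hΓ1 hJ hB1 hu1
  have hsub : g • B ⊆ Γ := by
    by_contra hh
    rw [Set.not_subset] at hh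
    obtain ⟨z, hz, hz2⟩ := hh
    exact hns (hJ.subset_of_block hB1 ⟨x, hx1, hx⟩ ⟨z, hz, hz2⟩)
  have hblk : IsBlock ↥(fixingSubgroup G Γᶜ) ((↑) ⁻¹' (g • B) : Set (ofFixingSubgroup G Γᶜ)) :=
    IsBlock.subtype_val_preimage (IsBlock.subgroup hB1)
  rcases hJp.isTrivialBlock_of_isBlock hblk with hs | hu
  · have hbg : g • b ∈ g • B := Set.smul_mem_smul_set hb
    have h1 : (⟨x, (mem_ofFixingSubgroup_iff G).mpr (by simpa using hx)⟩ : ofFixingSubgroup G Γᶜ) =
        ⟨g • b, (mem_ofFixingSubgroup_iff G).mpr (by simpa using hsub hbg)⟩ := hs hx1 hbg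
    have h2 : x = g • b := congrArg Subtype.val h1
    rw [← hg] at h2
    exact hab (smul_left_cancel g h2)
  · apply hns
    intro z hz
    have : (⟨z, (mem_ofFixingSubgroup_iff G).mpr (by simpa using hz)⟩ : ofFixingSubgroup G Γᶜ) ∈
        ((↑) ⁻¹' (g • B) : Set (ofFixingSubgroup G Γᶜ)) := by rw [hu]; trivial
    exact this

/-- 2-transitivity in elementary form. -/
theorem two_trans_iff : IsMultiplyPretransitive G Ω 2 ↔
    ∀ x y x' y' : Ω, x ≠ y → x' ≠ y' → ∃ g : G, g • x = x' ∧ g • y = y' := by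
  rw [CfsgLib.PermBasic.mt_iff]
  constructor
  · intro h x y x' y' h1 h2
    obtain ⟨g, hg⟩ := h ![x, y] ![x', y'] (by
      intro i j hij
      fin_cases i <;> fin_cases j <;> simp_all) (by
      intro i j hij
      fin_cases i <;> fin_cases j <;> simp_all)
    exact ⟨g, by simpa using hg 0, by simpa using hg 1⟩
  · intro h x y hx hy
    obtain ⟨g, h1, h2⟩ := h (x 0) (x 1) (y 0) (y 1) (fun hc => by simpa using hx hc)
      (fun hc => by simpa using hy hc)
    refine ⟨g, fun i => ?_⟩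
    fin_cases i
    · exact h1
    · exact h2

theorem two_trans_of_js [Finite Ω] (hprim : IsPreprimitive G Ω) {Γ : Set Ω}
    (h1 : 1 < Γ.ncard) (h2 : Γ.ncard < Nat.card Ω) (hJ : JS G Γ) :
    IsMultiplyPretransitive G Ω 2 := by
  have hc : Γᶜ.ncard = Nat.card Ω - Γ.ncard := by rw [Set.ncard_compl]
  obtain ⟨n, hn⟩ : ∃ n, Γᶜ.ncard = n + 1 := ⟨Γᶜ.ncard - 1, by omega⟩
  exact hprim.is_two_pretransitive hn (by omega) (js_iff.mp hJ)

theorem three_trans_of_js [Finite Ω] (h2t : IsMultiplyPretransitive G Ω 2) {Λ : Set Ω}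
    (h1 : Λ.ncard + 2 = Nat.card Ω) (hJ : JS G Λ) : IsMultiplyPretransitive G Ω 3 := by
  have hc : Λᶜ.ncard = 2 := by rw [Set.ncard_compl]; omega
  apply CfsgLib.PermBasic.mt_of_fixing (k := 1) h2t Λᶜ (Set.toFinite _) hc
  intro x y _ _ hx2 hy2
  obtain ⟨g, hg, hgx⟩ := hJ (x 0) (by simpa using hx2 0) (y 0) (by simpa using hy2 0)
  refine ⟨g, fun a ha => hg a ha, fun i => ?_⟩
  fin_cases i
  exact hgx

theorem exists_translate [Finite Ω] (hprim : IsPreprimitive G Ω) {Λ : Set Ω}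
    (h1 : 1 < Λ.ncard) (h2 : Λ.ncard < Nat.card Ω) :
    ∃ g : G, (Λ ∩ g • Λ).Nonempty ∧ g • Λ ≠ Λ := by
  by_contra hc
  push Not at hc
  have hblk : IsBlock G Λ := by
    rw [isBlock_iff_smul_eq_or_disjoint]
    intro g
    by_cases h : (Λ ∩ g • Λ).Nonempty
    · left; exact hc g h
    · right
      rw [Set.not_nonempty_iff_eq_empty] at h
      exact (Set.disjoint_iff_inter_eq_empty.mpr h).symm
  rcases hprim.isTrivialBlock_of_isBlock hblk with hs | hu
  · have := Set.ncard_le_one_iff_subsingleton.mpr hs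
    omega
  · rw [hu, Set.ncard_univ] at h2
    omega

theorem three_trans [Finite Ω] (hprim : IsPreprimitive G Ω) {Γ : Set Ω}
    (h1 : 1 < Γ.ncard) (h2 : 2 * Γ.ncard ≤ Nat.card Ω) (hJ : JS G Γ) :
    IsMultiplyPretransitive G Ω 3 := by
  classical
  by_contra hcon
  have h2t := two_trans_of_js hprim h1 (by omega) hJ
  have h2e := two_trans_iff.mp h2t
  have hno : ∀ Λ : Set Ω, JS G Λ → Λ.ncard + 2 ≠ Nat.card Ω := fun Λ hΛ hc =>
    hcon (three_trans_of_js h2t hc hΛ)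
  -- choose a maximal one
  let P : Set Ω → Prop := fun Λ => JS G Λ ∧ 1 < Λ.ncard ∧ Λ.ncard + 3 ≤ Nat.card Ω
  have hPΓ : P Γ := ⟨hJ, h1, by have := hno Γ hJ; omega⟩
  obtain ⟨Λ, hΛP, hΛmax⟩ : ∃ Λ, P Λ ∧ ∀ Λ', P Λ' → Λ'.ncard ≤ Λ.ncard := by
    have hfin : {Λ : Set Ω | P Λ}.Finite := Set.toFinite _
    obtain ⟨Λ, hΛ, hmax⟩ := Set.exists_max_image {Λ : Set Ω | P Λ} Set.ncard hfin ⟨Γ, hPΓ⟩
    exact ⟨Λ, hΛ, hmax⟩
  obtain ⟨hΛJ, hΛ1, hΛ3⟩ := hΛP
  have hunion : ∀ g h : G, g • Λ ≠ h • Λ → (g • Λ ∩ h • Λ).Nonempty →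
      Nat.card Ω ≤ (g • Λ ∪ h • Λ).ncard + 1 := by
    intro g h hne hint
    have hJu := (hΛJ.smul g).union (hΛJ.smul h) hint
    have hlt : Λ.ncard < (g • Λ ∪ h • Λ).ncard := by
      rw [← Set.ncard_smul_set g Λ]
      apply Set.ncard_lt_ncard _ (Set.toFinite _)
      refine ⟨Set.subset_union_left, fun hh => hne ?_⟩
      have hs : h • Λ ⊆ g • Λ := Set.subset_union_right.trans hh
      symm
      apply Set.eq_of_subset_of_ncard_le hs _ (Set.toFinite _)
      rw [Set.ncard_smul_set, Set.ncard_smul_set]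
    have hn := hno _ hJu
    by_contra hc
    have := hΛmax _ (⟨hJu, by omega, by omega⟩ : P (g • Λ ∪ h • Λ))
    omega
  have hbig : Nat.card Ω < 2 * Λ.ncard := by
    by_contra hc
    rw [not_lt] at hc
    obtain ⟨g, hgi, hgn⟩ := exists_translate hprim hΛ1 (by omega)
    have hu := hunion 1 g (by rw [one_smul]; exact hgn.symm) (by rw [one_smul]; exact hgi)
    rw [one_smul] at hu
    have hui := Set.ncard_union_add_ncard_inter Λ (g • Λ)
    rw [Set.ncard_smul_set] at hui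
    have hpos : 0 < (Λ ∩ g • Λ).ncard := (Set.ncard_pos (Set.toFinite _)).mpr hgi
    obtain ⟨x, hxΛ, hxg⟩ := hgi
    -- there is a point z outside the union
    have hex : ∃ z, z ∉ Λ ∪ g • Λ := by
      by_contra hh
      push Not at hh
      have : Λ ∪ g • Λ = Set.univ := Set.eq_univ_iff_forall.mpr hh
      rw [this, Set.ncard_univ] at hui
      omega
    obtain ⟨z, hz⟩ := hex
    have hzΛ : z ∉ Λ := fun h => hz (Or.inl h)
    have hzg : z ∉ g • Λ := fun h => hz (Or.inr h)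
    have hcompl : (Λ ∪ g • Λ)ᶜ = {z} := by
      have h3 : (Λ ∪ g • Λ)ᶜ.ncard ≤ 1 := by rw [Set.ncard_compl]; omega
      rw [Set.ncard_le_one_iff_subsingleton] at h3
      exact h3.eq_singleton_of_mem hz
    obtain ⟨u, hu1, hux⟩ : ∃ u ∈ Λ, u ≠ x := by
      rw [Set.one_lt_ncard] at hΛ1
      obtain ⟨a, ha, b, hb, hab⟩ := hΛ1
      by_cases hax : a = x
      · exact ⟨b, hb, fun h => hab (hax.trans h.symm)⟩
      · exact ⟨a, ha, hax⟩
    obtain ⟨h, hhx, hhu⟩ := h2e x u x z hux.symm (fun hc => hzΛ (hc ▸ hxΛ))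
    have hxh : x ∈ h • Λ := by rw [← hhx]; exact Set.smul_mem_smul_set hxΛ
    have hzh : z ∈ h • Λ := by rw [← hhu]; exact Set.smul_mem_smul_set hu1
    have hn1 : (1 : G) • Λ ≠ h • Λ := by
      rw [one_smul]; intro hc; exact hzΛ (hc ▸ hzh)
    have hn2 : g • Λ ≠ h • Λ := fun hc => hzg (hc ▸ hzh)
    have hu1' := hunion 1 h hn1 ⟨x, by rw [one_smul]; exact hxΛ, hxh⟩
    have hu2' := hunion g h hn2 ⟨x, hxg, hxh⟩
    rw [one_smul] at hu1'
    have hui1 := Set.ncard_union_add_ncard_inter Λ (h • Λ)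
    have hui2 := Set.ncard_union_add_ncard_inter (g • Λ) (h • Λ)
    rw [Set.ncard_smul_set] at hui1
    rw [Set.ncard_smul_set, Set.ncard_smul_set] at hui2
    have hs1 : (Λ ∩ h • Λ).Subsingleton := by
      rw [← Set.ncard_le_one_iff_subsingleton]; omega
    have hs2 : (g • Λ ∩ h • Λ).Subsingleton := by
      rw [← Set.ncard_le_one_iff_subsingleton]; omega
    have hsub : h • Λ ⊆ {x, z} := by
      intro w hw
      by_cases hw1 : w ∈ Λ
      · left; exact hs1 ⟨hw1, hw⟩ ⟨hxΛ, hxh⟩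
      · by_cases hw2 : w ∈ g • Λ
        · left; exact hs2 ⟨hw2, hw⟩ ⟨hxg, hxh⟩
        · right
          have : w ∈ (Λ ∪ g • Λ)ᶜ := fun hc => hc.elim hw1 hw2
          rw [hcompl] at this
          exact this
    have hle : (h • Λ).ncard ≤ 2 := by
      refine (Set.ncard_le_ncard hsub (Set.toFinite _)).trans ?_
      exact (Set.ncard_insert_le x {z}).trans (by rw [Set.ncard_singleton])
    rw [Set.ncard_smul_set] at hle
    omega
  -- lines: translates of the complement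
  set Δ : Set Ω := Λᶜ with hΔ
  have hΔc : Δ.ncard = Nat.card Ω - Λ.ncard := by rw [hΔ, Set.ncard_compl]
  have hline : ∀ g h : G, ∀ a b : Ω, a ≠ b → a ∈ g • Δ → b ∈ g • Δ → a ∈ h • Δ → b ∈ h • Δ →
      g • Δ = h • Δ := by
    intro g h a b hab h1 h2 h3 h4
    by_contra hne
    have hne' : g • Λ ≠ h • Λ := by
      intro hc
      apply hne
      rw [hΔ, Set.smul_set_compl, Set.smul_set_compl, hc]
    have hint : (g • Λ ∩ h • Λ).Nonempty := by
      by_contra hemp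
      rw [Set.not_nonempty_iff_eq_empty] at hemp
      have hui := Set.ncard_union_add_ncard_inter (g • Λ) (h • Λ)
      rw [Set.ncard_smul_set, Set.ncard_smul_set, hemp, Set.ncard_empty] at hui
      have : (g • Λ ∪ h • Λ).ncard ≤ Nat.card Ω := Set.ncard_le_card _
      omega
    have hu := hunion g h hne' hint
    have hc2 : (g • Λ ∪ h • Λ)ᶜ.Subsingleton := by
      rw [← Set.ncard_le_one_iff_subsingleton, Set.ncard_compl]; omega
    rw [hΔ, Set.smul_set_compl] at h1 h2 h3 h4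
    exact hab (hc2 (fun hc => hc.elim h1 h3) (fun hc => hc.elim h2 h4))
  have hex : ∀ a b : Ω, a ≠ b → ∃ g : G, a ∈ g • Δ ∧ b ∈ g • Δ := by
    intro a b hab
    have : 1 < Δ.ncard := by omega
    rw [Set.one_lt_ncard] at this
    obtain ⟨c, hc, d, hd, hcd⟩ := this
    obtain ⟨g, h1, h2⟩ := h2e c d a b hcd hab
    exact ⟨g, by rw [← h1]; exact Set.smul_mem_smul_set hc,
      by rw [← h2]; exact Set.smul_mem_smul_set hd⟩
  have h3pts : ∀ g : G, ∀ a b : Ω, ∃ c ∈ g • Δ, c ≠ a ∧ c ≠ b := by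
    intro g a b
    by_contra hc
    push Not at hc
    have hsub : g • Δ ⊆ {a, b} := by
      intro w hw
      by_cases hwa : w = a
      · left; exact hwa
      · right; exact hc w hw hwa
    have : (g • Δ).ncard ≤ 2 := by
      refine (Set.ncard_le_ncard hsub (Set.toFinite _)).trans ?_
      exact (Set.ncard_insert_le a {b}).trans (by rw [Set.ncard_singleton])
    rw [Set.ncard_smul_set] at this
    omega
  have factF : ∀ g : G, ∀ a b c : Ω, a ≠ b → a ∈ g • Δ → b ∈ g • Δ → a ∉ Γ → b ∉ Γ →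
      c ∈ g • Δ → c ∈ Γ → Γ ⊆ g • Δ := by
    intro g a b c hab ha hb haΓ hbΓ hc hcΓ y hy
    obtain ⟨j, hj, hjc⟩ := hJ c hcΓ y hy
    have h1 : a ∈ (j * g) • Δ := by
      rw [mul_smul, ← hj a haΓ]; exact Set.smul_mem_smul_set ha
    have h2 : b ∈ (j * g) • Δ := by
      rw [mul_smul, ← hj b hbΓ]; exact Set.smul_mem_smul_set hb
    have h3 := hline g (j * g) a b hab ha hb h1 h2
    rw [h3, mul_smul, ← hjc]
    exact Set.smul_mem_smul_set hc
  have hΓ2 := h1
  rw [Set.one_lt_ncard] at hΓ2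
  obtain ⟨x, hx, x', hx', hxx'⟩ := hΓ2
  by_cases hcase : ∃ g : G, ∃ a b c : Ω, a ≠ b ∧ a ∈ g • Δ ∧ b ∈ g • Δ ∧ a ∉ Γ ∧ b ∉ Γ ∧
      c ∈ g • Δ ∧ c ∈ Γ
  · obtain ⟨g, a, b, c, hab, ha, hb, haΓ, hbΓ, hc, hcΓ⟩ := hcase
    have hsub := factF g a b c hab ha hb haΓ hbΓ hc hcΓ
    -- a point outside the line
    obtain ⟨y, hy⟩ : ∃ y, y ∉ g • Δ := by
      by_contra hh
      push Not at hh
      have : g • Δ = Set.univ := Set.eq_univ_iff_forall.mpr hh
      have h5 := Set.ncard_smul_set g Δ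
      rw [this, Set.ncard_univ] at h5
      omega
    have hxy : x ≠ y := fun h => hy (h ▸ hsub hx)
    obtain ⟨k, hk1, hk2⟩ := hex x y hxy
    have hnot : ∀ w ∈ k • Δ, w ≠ x → w ∉ g • Δ := by
      intro w hw hwx hwg
      have := hline k g w x hwx hw hk1 hwg (hsub hx)
      exact hy (this ▸ hk2)
    obtain ⟨w, hw, hwx, hwy⟩ := h3pts k x y
    have h6 : Γ ⊆ k • Δ := factF k w y x hwy hw hk2 (fun h => hnot w hw hwx (hsub h))
      (fun h => hy (hsub h)) hk1 hx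
    exact hnot x' (h6 hx') hxx'.symm (hsub hx')
  · push Not at hcase
    -- injection from the complement of Γ to Γ \ {x}
    have hch : ∀ y : Ω, y ∉ Γ → ∃ w ∈ Γ, w ≠ x ∧ ∃ g : G, x ∈ g • Δ ∧ y ∈ g • Δ ∧ w ∈ g • Δ := by
      intro y hy
      obtain ⟨g, hg1, hg2⟩ := hex x y (fun h => hy (h ▸ hx))
      obtain ⟨w, hw, hwx, hwy⟩ := h3pts g x y
      refine ⟨w, ?_, hwx, g, hg1, hg2, hw⟩
      by_contra hwΓ
      exact hcase g w y x hwy hw hg2 hwΓ hy hg1 hx
    choose! f hf1 hf2 hf3 using hch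
    have hinj : Set.InjOn f Γᶜ := by
      intro y hy y' hy' hff
      obtain ⟨g, hg1, hg2, hg3⟩ := hf3 y hy
      obtain ⟨k, hk1, hk2, hk3⟩ := hf3 y' hy'
      rw [← hff] at hk3
      have := hline g k x (f y) (hf2 y hy).symm hg1 hg3 hk1 hk3
      by_contra hne
      exact hcase g y y' x hne hg2 (this ▸ hk2) hy hy' hg1 hx
    have hle : Γᶜ.ncard ≤ (Γ \ {x}).ncard := by
      apply Set.ncard_le_ncard_of_injOn f _ hinj (Set.toFinite _)
      intro y hy
      exact ⟨hf1 y hy, hf2 y hy⟩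
    rw [Set.ncard_diff_singleton_of_mem hx, Set.ncard_compl] at hle
    omega

end CfsgLib.H14Jordan
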