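import Cfsg.Agent.LibH22SL

/-! Generation of the special linear and symplectic groups of a vector space by transvections, coordinate free (seat helper14). -/

set_option autoImplicit false

namespace CfsgLib.H14MG

open Module

section gen
variable {k U : Type*} [Field k] [AddCommGroup U] [Module k U] [FiniteDimensional k U]

theorem gen_SL (M : Subgroup (U ≃ₗ[k] U)) (hM : ∀ (ψ : Dual k U) (u : U), ψ u = 0 → ∃ m ∈ M, ∀ v, m v = v + ψ v • u)
    (g : U ≃ₗ[k] U) (hg : LinearMap.det (g : U →ₗ[k] U) = 1) : g ∈ M := by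
  classical
  let b := Module.finBasis k U
  have hdet : (LinearMap.toMatrix b b (g : U →ₗ[k] U)).det = 1 := by rw [LinearMap.det_toMatrix]; exact hg
  have key : ∀ A : Matrix.SpecialLinearGroup (Fin (finrank k U)) k, ∃ m ∈ M, LinearMap.toMatrix b b (m : U →ₗ[k] U) = A.1 := by
    intro A
    rcases subsingleton_or_nontrivial (Fin (finrank k U)) with hs | hs
    · refine ⟨1, M.one_mem, ?_⟩
      have : A = 1 := by
        ext i j
        have h1 := A.2
        rw [Matrix.det_eq_elem_of_subsingleton _ i] at h1
        have hij : i = j := Subsingleton.elim _ _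
        subst hij
        rw [Matrix.SpecialLinearGroup.coe_one, Matrix.one_apply_eq]
        exact h1
      rw [this]
      exact LinearMap.toMatrix_id b
    · refine Cfsg.Agent.H22.SLn.transvection_induction (fun A => ∃ m ∈ M, LinearMap.toMatrix b b (m : U →ₗ[k] U) = A.1) ?_ ?_ A
      · intro i j hij c
        obtain ⟨m, hm, h1⟩ := hM (c • b.coord j) (b i) (by simp [hij])
        refine ⟨m, hm, ?_⟩
        ext i' j'
        rw [LinearMap.toMatrix_apply, LinearEquiv.coe_coe, h1]
        simp [Matrix.SpecialLinearGroup.transvection_coe, Matrix.transvection, Matrix.one_apply, Matrix.single_apply, Finsupp.single_apply]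
        by_cases e1 : j' = j
        · subst e1
          by_cases e2 : i = i'
          · subst e2; simp [eq_comm]
          · simp [eq_comm, e2]
        · have e1' : ¬ j = j' := fun h => e1 h.symm
          simp [e1, e1', eq_comm]
      · rintro A B ⟨m, hm, h1⟩ ⟨m', hm', h2⟩
        refine ⟨m * m', M.mul_mem hm hm', ?_⟩
        rw [Matrix.SpecialLinearGroup.coe_mul, ← h1, ← h2]
        exact LinearMap.toMatrix_comp b b b _ _
  obtain ⟨m, hm, h1⟩ := key ⟨_, hdet⟩
  have : (m : U →ₗ[k] U) = g := (LinearMap.toMatrix b b).injective h1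
  have : m = g := LinearEquiv.toLinearMap_injective this
  rw [← this]; exact hm

variable {B : LinearMap.BilinForm k U} (hA : B.IsAlt) (hnd : ∀ u, (∀ v, B u v = 0) → u = 0)
include hA

omit [FiniteDimensional k U] in
theorem bsk (x y : U) : B x y = - B y x := by
  have h1 := hA (x + y)
  have h2 := hA x
  have h3 := hA y
  simp only [map_add, LinearMap.add_apply] at h1
  rw [h2, h3] at h1
  linear_combination h1

/-- symplectic transvection -/
noncomputable def st (u : U) (c : k) : U ≃ₗ[k] U :=
  LinearEquiv.transvection (f := c • (B u : Dual k U)) (v := u) (by rw [LinearMap.smul_apply, hA u, smul_zero])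

omit [FiniteDimensional k U] in
theorem st_apply (u : U) (c : k) (v : U) : st hA u c v = v + (c * B u v) • u := rfl

omit [FiniteDimensional k U] in
theorem st_iso (u : U) (c : k) (x y : U) : B (st hA u c x) (st hA u c y) = B x y := by
  rw [st_apply, st_apply]
  simp only [map_add, map_smul, LinearMap.add_apply, LinearMap.smul_apply, smul_eq_mul]
  rw [hA u, bsk hA x u]
  ring

omit [FiniteDimensional k U] in
theorem st_fix (u : U) (c : k) (x : U) (h : B u x = 0) : st hA u c x = x := by
  rw [st_apply, h, mul_zero, zero_smul, add_zero]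

omit [FiniteDimensional k U] in
theorem st_move (u v : U) (h : B v u ≠ 0) : st hA (v - u) (B v u)⁻¹ u = v := by
  rw [st_apply, map_sub, LinearMap.sub_apply, hA u, sub_zero, inv_mul_cancel₀ h, one_smul, add_sub_cancel]

/-- fixed space -/
def fx (g : U ≃ₗ[k] U) : Submodule k U where
  carrier := {x | g x = x}
  add_mem' := by intro a b ha hb; change g (a + b) = a + b; rw [map_add, ha, hb]
  zero_mem' := map_zero g
  smul_mem' := by intro c a ha; change g (c • a) = c • a; rw [map_smul, ha]

omit hA [FiniteDimensional k U] in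
theorem mem_fx (g : U ≃ₗ[k] U) (x : U) : x ∈ fx g ↔ g x = x := Iff.rfl

include hnd

omit hA in
theorem riesz (φ : Dual k U) : ∃ z, ∀ x, φ x = B z x := by
  have hinj : Function.Injective (B : U →ₗ[k] Dual k U) := by
    rw [injective_iff_map_eq_zero]
    intro u hu
    exact hnd u fun v => by rw [hu]; rfl
  have hsurj : Function.Surjective (B : U →ₗ[k] Dual k U) :=
    (LinearMap.injective_iff_surjective_of_finrank_eq_finrank (Subspace.dual_finrank_eq).symm).1 hinj
  obtain ⟨z, hz⟩ := hsurj φ
  exact ⟨z, fun x => by rw [← hz]⟩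

theorem exists_reduce (M : Subgroup (U ≃ₗ[k] U)) (hM : ∀ u c, st hA u c ∈ M) (g : U ≃ₗ[k] U)
    (hg : ∀ x y, B (g x) (g y) = B x y) (x : U) (hx : g x ≠ x) :
    ∃ t ∈ M, (∀ x y, B (t x) (t y) = B x y) ∧ t x = g x ∧ ∀ y, g y = y → t y = y := by
  have hfix : ∀ y, g y = y → B (g x) y = B x y := by
    intro y hy
    conv_lhs => rw [← hy]
    exact hg x y
  by_cases h : B (g x) x = 0
  · have hgx : g x ∉ fx g := fun h0 => hx (g.injective h0)
    obtain ⟨ψ1, h1, h1'⟩ := Submodule.exists_le_ker_of_notMem (p := fx g) (v := x) hx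
    obtain ⟨ψ2, h2, h2'⟩ := Submodule.exists_le_ker_of_notMem hgx
    obtain ⟨ψ, e1, e2, e3⟩ : ∃ ψ : Dual k U, ψ x ≠ 0 ∧ ψ (g x) ≠ 0 ∧ ∀ y, g y = y → ψ y = 0 := by
      by_cases c1 : ψ1 (g x) = 0
      · by_cases c2 : ψ2 x = 0
        · refine ⟨ψ1 + ψ2, ?_, ?_, ?_⟩
          · rw [LinearMap.add_apply, c2, add_zero]; exact h1
          · rw [LinearMap.add_apply, c1, zero_add]; exact h2
          · intro y hy
            rw [LinearMap.add_apply, LinearMap.mem_ker.1 (h1' hy), LinearMap.mem_ker.1 (h2' hy), add_zero]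
        · exact ⟨ψ2, c2, h2, fun y hy => h2' hy⟩
      · exact ⟨ψ1, h1, c1, fun y hy => h1' hy⟩
    obtain ⟨z, hz⟩ := riesz hnd ψ
    rw [hz] at e1 e2
    have h3 : B (x + z) x ≠ 0 := by
      rw [map_add, LinearMap.add_apply, hA x, zero_add]; exact e1
    have h4 : B (g x) (x + z) ≠ 0 := by
      rw [map_add, h, zero_add, bsk hA]; exact neg_ne_zero.2 e2
    refine ⟨st hA (g x - (x + z)) (B (g x) (x + z))⁻¹ * st hA (x + z - x) (B (x + z) x)⁻¹, M.mul_mem (hM _ _) (hM _ _), ?_, ?_, ?_⟩
    · intro a b
      rw [LinearEquiv.mul_apply, LinearEquiv.mul_apply, st_iso, st_iso]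
    · rw [LinearEquiv.mul_apply, st_move hA _ _ h3, st_move hA _ _ h4]
    · intro y hy
      have hyz : B z y = 0 := by rw [← hz, e3 y hy]
      rw [LinearEquiv.mul_apply, st_fix hA (x + z - x) _ y (by rw [add_sub_cancel_left, hyz]), st_fix]
      rw [map_sub, LinearMap.sub_apply, hfix y hy, map_add, LinearMap.add_apply, hyz, add_zero, sub_self]
  · refine ⟨st hA (g x - x) (B (g x) x)⁻¹, hM _ _, st_iso hA _ _, st_move hA _ _ h, ?_⟩
    intro y hy
    apply st_fix
    rw [map_sub, LinearMap.sub_apply, hfix y hy, sub_self]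

theorem gen_Sp' (M : Subgroup (U ≃ₗ[k] U)) (hM : ∀ u c, st hA u c ∈ M) (g : U ≃ₗ[k] U)
    (hg : ∀ x y, B (g x) (g y) = B x y) : g ∈ M := by
  have key : ∀ d : ℕ, ∀ g : U ≃ₗ[k] U, (∀ x y, B (g x) (g y) = B x y) → finrank k U - finrank k (fx g) ≤ d → g ∈ M := by
    intro d
    induction d with
    | zero =>
      intro g _ hd
      have h1 : fx g = ⊤ := by
        apply Submodule.eq_top_of_finrank_eq
        have := Submodule.finrank_le (fx g)
        omega
      have h2 : g = 1 := by
        ext x
        have : x ∈ fx g := h1 ▸ Submodule.mem_top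
        exact this
      rw [h2]; exact M.one_mem
    | succ d ih =>
      intro g hg hd
      by_cases htop : fx g = ⊤
      · apply ih g hg
        rw [htop, finrank_top]; omega
      obtain ⟨x, hx⟩ : ∃ x, g x ≠ x := by
        by_contra hcon
        push Not at hcon
        exact htop (eq_top_iff.mpr fun x _ => hcon x)
      obtain ⟨t, htM, hti, htx, hty⟩ := exists_reduce hA hnd M hM g hg x hx
      have h5 : t⁻¹ * g ∈ M := by
        apply ih
        · intro a b
          rw [← hti, LinearEquiv.mul_apply, LinearEquiv.mul_apply, ← LinearEquiv.mul_apply, ← LinearEquiv.mul_apply t, mul_inv_cancel]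
          exact hg a b
        · have hlt : fx g < fx (t⁻¹ * g) := by
            refine lt_of_le_of_ne ?_ ?_
            · intro y hy
              rw [mem_fx] at hy ⊢
              rw [LinearEquiv.mul_apply, hy]
              have := hty y hy
              calc t⁻¹ y = t⁻¹ (t y) := by rw [this]
                _ = (t⁻¹ * t) y := rfl
                _ = y := by rw [inv_mul_cancel]; rfl
            · intro he
              have : x ∈ fx (t⁻¹ * g) := by
                rw [mem_fx, LinearEquiv.mul_apply, ← htx]
                change (t⁻¹ * t) x = x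
                rw [inv_mul_cancel]; rfl
              rw [← he] at this
              exact hx this
          have := Submodule.finrank_lt_finrank_of_lt hlt
          omega
      have := M.mul_mem htM h5
      rwa [mul_inv_cancel_left] at this
  exact key _ g hg le_rfl

theorem gen_Sp (M : Subgroup (U ≃ₗ[k] U)) (hM : ∀ u c, ∃ m ∈ M, ∀ v, m v = v + (c * B u v) • u) (g : U ≃ₗ[k] U)
    (hg : ∀ x y, B (g x) (g y) = B x y) : g ∈ M := by
  refine gen_Sp' hA hnd M ?_ g hg
  intro u c
  obtain ⟨m, hm, h1⟩ := hM u c
  have : m = st hA u c := by ext v; rw [h1, st_apply]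
  rw [← this]; exact hm

end gen

end CfsgLib.H14MG
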