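import Mathlib

/-! Systems of transvections: components (seat helper14). -/

set_option autoImplicit false

namespace CfsgLib.H14MT

open Module

section basic
variable {k V : Type*} [Field k] [AddCommGroup V] [Module k V]

/-- transvection systems -/
structure TS (Sg : V → Dual k V → Prop) : Prop where
  ker : ∀ {x : V} {f : Dual k V}, Sg x f → f x = 0
  zl : ∀ f : Dual k V, Sg 0 f
  zr : ∀ x : V, Sg x 0
  add_l : ∀ {x y : V} {f : Dual k V}, Sg x f → Sg y f → Sg (x + y) f
  add_r : ∀ {x : V} {f g : Dual k V}, Sg x f → Sg x g → Sg x (f + g)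
  smul_l : ∀ (c : k) {x : V} {f : Dual k V}, Sg x f → Sg (c • x) f
  smul_r : ∀ (c : k) {x : V} {f : Dual k V}, Sg x f → Sg x (c • f)
  comm : ∀ {x y : V} {f h : Dual k V}, Sg x f → Sg y h → h x = 0 → Sg x (f y • h)
  conj : ∀ {x y : V} {f h : Dual k V} (c : k), Sg x f → Sg y h → Sg (x + (c * h x) • y) (f - (c * f y) • h)
  partner : ∀ {x : V} {f : Dual k V}, Sg x f → x ≠ 0 → f ≠ 0 → ∃ y h, Sg y h ∧ f y ≠ 0 ∧ h x ≠ 0

/-- nontrivial pairs -/
structure In (Sg : V → Dual k V → Prop) (a : V × Dual k V) : Prop where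
  s : Sg a.1 a.2
  x : a.1 ≠ 0
  f : a.2 ≠ 0

/-- adjacency -/
structure Adj (Sg : V → Dual k V → Prop) (a b : V × Dual k V) : Prop where
  l : In Sg a
  r : In Sg b
  lr : a.2 b.1 ≠ 0
  rl : b.2 a.1 ≠ 0

abbrev Cn (Sg : V → Dual k V → Prop) : V × Dual k V → V × Dual k V → Prop := Relation.ReflTransGen (Adj Sg)

variable {Sg : V → Dual k V → Prop}

theorem Adj.symm {a b : V × Dual k V} (h : Adj Sg a b) : Adj Sg b a := ⟨h.r, h.l, h.rl, h.lr⟩

theorem Cn.symm {a b : V × Dual k V} (h : Cn Sg a b) : Cn Sg b a := by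
  induction h with
  | refl => exact Relation.ReflTransGen.refl
  | tail _ h2 ih => exact Relation.ReflTransGen.head h2.symm ih

theorem ne_of {f : Dual k V} {y : V} (h : f y ≠ 0) : f ≠ 0 ∧ y ≠ 0 := by
  constructor
  · rintro rfl; simp at h
  · rintro rfl; simp at h

theorem adj_of {x y : V} {f h : Dual k V} (h1 : Sg x f) (h2 : Sg y h) (h3 : f y ≠ 0) (h4 : h x ≠ 0) : Adj Sg (x, f) (y, h) :=
  ⟨⟨h1, (ne_of h4).2, (ne_of h3).1⟩, ⟨h2, (ne_of h3).2, (ne_of h4).1⟩, h3, h4⟩

variable (t : TS Sg)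
include t

theorem L1 {x : V} {f h : Dual k V} (hf : In Sg (x, f)) (hh : In Sg (x, h)) : Cn Sg (x, f) (x, h) := by
  obtain ⟨x', f', h1, h2, h3⟩ := t.partner hf.s hf.x hf.f
  have a1 : Adj Sg (x, f) (x', f') := adj_of hf.s h1 h2 h3
  by_cases c1 : h x' = 0
  · obtain ⟨w, l, k1, k2, k3⟩ := t.partner hh.s hh.x hh.f
    have a2 : Adj Sg (x, h) (w, l) := adj_of hh.s k1 k2 k3
    by_cases c2 : f w = 0
    · have h4 : Sg x (f + h) := t.add_r hf.s hh.s
      have a3 : Adj Sg (x, f + h) (x', f') := adj_of h4 h1 (by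
        change f x' + h x' ≠ 0; rw [c1, add_zero]; exact h2) h3
      have a4 : Adj Sg (x, f + h) (w, l) := adj_of h4 k1 (by
        change f w + h w ≠ 0; rw [c2, zero_add]; exact k2) k3
      exact (((Relation.ReflTransGen.single a1).tail a3.symm).tail a4).tail a2.symm
    · have a5 : Adj Sg (x, f) (w, l) := adj_of hf.s k1 c2 k3
      exact (Relation.ReflTransGen.single a5).tail a2.symm
  · have a6 : Adj Sg (x, h) (x', f') := adj_of hh.s h1 c1 h3
    exact (Relation.ReflTransGen.single a1).tail a6.symm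

theorem L2 {x y : V} {f : Dual k V} (hx : In Sg (x, f)) (hy : In Sg (y, f)) : Cn Sg (x, f) (y, f) := by
  obtain ⟨x', f', h1, h2, h3⟩ := t.partner hx.s hx.x hx.f
  have a1 : Adj Sg (x, f) (x', f') := adj_of hx.s h1 h2 h3
  by_cases c1 : f' y = 0
  · obtain ⟨w, l, k1, k2, k3⟩ := t.partner hy.s hy.x hy.f
    have a2 : Adj Sg (y, f) (w, l) := adj_of hy.s k1 k2 k3
    by_cases c2 : l x = 0
    · have h4 : Sg (x + y) f := t.add_l hx.s hy.s
      have a3 : Adj Sg (x + y, f) (x', f') := adj_of h4 h1 h2 (by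
        rw [map_add, c1, add_zero]; exact h3)
      have a4 : Adj Sg (x + y, f) (w, l) := adj_of h4 k1 k2 (by
        rw [map_add, c2, zero_add]; exact k3)
      exact (((Relation.ReflTransGen.single a1).tail a3.symm).tail a4).tail a2.symm
    · have a5 : Adj Sg (x, f) (w, l) := adj_of hx.s k1 k2 c2
      exact (Relation.ReflTransGen.single a5).tail a2.symm
  · have a6 : Adj Sg (y, f) (x', f') := adj_of hy.s h1 h2 c1
    exact (Relation.ReflTransGen.single a1).tail a6.symm

theorem comm' {x y : V} {f h : Dual k V} (h1 : Sg x f) (h2 : Sg y h) (h3 : h x = 0) (h4 : f y ≠ 0) : Sg x h := by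
  have := t.smul_r (f y)⁻¹ (t.comm h1 h2 h3)
  rwa [smul_smul, inv_mul_cancel₀ h4, one_smul] at this

theorem F1 {a b : V × Dual k V} (ha : In Sg a) (hb : In Sg b) (h : a.2 b.1 ≠ 0 ∨ b.2 a.1 ≠ 0) : Cn Sg a b := by
  obtain ⟨x, f⟩ := a
  obtain ⟨y, h'⟩ := b
  by_cases h1 : f y = 0
  · have h2 : h' x ≠ 0 := h.resolve_left (fun h3 => h3 h1)
    have h3 : Sg y f := comm' t hb.s ha.s h1 h2
    have i : In Sg (y, f) := ⟨h3, hb.x, ha.f⟩
    exact (L2 t ha i).trans (L1 t i hb)
  · by_cases h2 : h' x = 0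
    · have h3 : Sg x h' := comm' t ha.s hb.s h2 h1
      have i : In Sg (x, h') := ⟨h3, ha.x, hb.f⟩
      exact (L1 t ha i).trans (L2 t i hb)
    · exact Relation.ReflTransGen.single (adj_of ha.s hb.s h1 h2)

/-- the component of `a0` -/
def Cp (Sg : V → Dual k V → Prop) (a0 : V × Dual k V) (x : V) (f : Dual k V) : Prop :=
  x = 0 ∨ f = 0 ∨ (Sg x f ∧ Cn Sg a0 (x, f))

omit t in
theorem cp_in {a0 a : V × Dual k V} : In (Cp Sg a0) a ↔ In Sg a ∧ Cn Sg a0 a := by
  constructor
  · intro h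
    rcases h.s with h1 | h1 | h1
    · exact absurd h1 h.x
    · exact absurd h1 h.f
    · exact ⟨⟨h1.1, h.x, h.f⟩, h1.2⟩
  · rintro ⟨h, hc⟩
    exact ⟨Or.inr (Or.inr ⟨h.s, hc⟩), h.x, h.f⟩

theorem cp_sg {a0 : V × Dual k V} {x : V} {f : Dual k V} (h : Cp Sg a0 x f) : Sg x f := by
  rcases h with rfl | rfl | h
  · exact t.zl f
  · exact t.zr x
  · exact h.1

omit t in
theorem cp_of {a0 : V × Dual k V} {x : V} {f : Dual k V} (h : Sg x f) (hc : x ≠ 0 → f ≠ 0 → Cn Sg a0 (x, f)) : Cp Sg a0 x f := by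
  by_cases hx : x = 0
  · left; exact hx
  · by_cases hf : f = 0
    · right; left; exact hf
    · right; right; exact ⟨h, hc hx hf⟩

theorem ts_cp {a0 : V × Dual k V} : TS (Cp Sg a0) where
  ker h := t.ker (cp_sg t h)
  zl _ := Or.inl rfl
  zr _ := Or.inr (Or.inl rfl)
  add_l := by
    intro x y f hx hy
    apply cp_of (t.add_l (cp_sg t hx) (cp_sg t hy))
    intro h0 hf
    rcases hx with rfl | h1 | h1
    · rw [zero_add] at h0 ⊢
      rcases hy with rfl | h2 | h2
      · exact absurd rfl h0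
      · exact absurd h2 hf
      · exact h2.2
    · exact absurd h1 hf
    · by_cases hx0 : x = 0
      · subst hx0
        rw [zero_add] at h0 ⊢
        rcases hy with rfl | h2 | h2
        · exact absurd rfl h0
        · exact absurd h2 hf
        · exact h2.2
      · exact h1.2.trans (L2 t ⟨h1.1, hx0, hf⟩ ⟨t.add_l h1.1 (cp_sg t hy), h0, hf⟩)
  add_r := by
    intro x f g hf hg
    apply cp_of (t.add_r (cp_sg t hf) (cp_sg t hg))
    intro hx h0
    rcases hf with h1 | rfl | h1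
    · exact absurd h1 hx
    · rw [zero_add] at h0 ⊢
      rcases hg with h2 | h2 | h2
      · exact absurd h2 hx
      · exact absurd h2 h0
      · exact h2.2
    · by_cases hf0 : f = 0
      · subst hf0
        rw [zero_add] at h0 ⊢
        rcases hg with h2 | h2 | h2
        · exact absurd h2 hx
        · exact absurd h2 h0
        · exact h2.2
      · exact h1.2.trans (L1 t ⟨h1.1, hx, hf0⟩ ⟨t.add_r h1.1 (cp_sg t hg), hx, h0⟩)
  smul_l := by
    intro c x f h
    apply cp_of (t.smul_l c (cp_sg t h))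
    intro h0 hf
    have hx : x ≠ 0 := by rintro rfl; exact h0 (smul_zero c)
    rcases h with h1 | h1 | h1
    · exact absurd h1 hx
    · exact absurd h1 hf
    · exact h1.2.trans (L2 t ⟨h1.1, hx, hf⟩ ⟨t.smul_l c h1.1, h0, hf⟩)
  smul_r := by
    intro c x f h
    apply cp_of (t.smul_r c (cp_sg t h))
    intro hx h0
    have hf : f ≠ 0 := by rintro rfl; exact h0 (smul_zero c)
    rcases h with h1 | h1 | h1
    · exact absurd h1 hx
    · exact absurd h1 hf
    · exact h1.2.trans (L1 t ⟨h1.1, hx, hf⟩ ⟨t.smul_r c h1.1, hx, h0⟩)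
  comm := by
    intro x y f h h1 h2 h3
    apply cp_of (t.comm (cp_sg t h1) (cp_sg t h2) h3)
    intro hx h0
    have hf : f ≠ 0 := by rintro rfl; apply h0; simp
    rcases h1 with k1 | k1 | k1
    · exact absurd k1 hx
    · exact absurd k1 hf
    · exact k1.2.trans (L1 t ⟨k1.1, hx, hf⟩ ⟨t.comm k1.1 (cp_sg t h2) h3, hx, h0⟩)
  conj := by
    intro x y f h c h1 h2
    apply cp_of (t.conj c (cp_sg t h1) (cp_sg t h2))
    intro hx' hf'
    have hx : x ≠ 0 := by rintro rfl; apply hx'; simp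
    have hf : f ≠ 0 := by rintro rfl; apply hf'; simp
    have k : Sg x f ∧ Cn Sg a0 (x, f) := by
      rcases h1 with k1 | k1 | k1
      · exact absurd k1 hx
      · exact absurd k1 hf
      · exact k1
    have hy : h y = 0 := t.ker (cp_sg t h2)
    by_cases hh : h = 0
    · subst hh; simpa using k.2
    by_cases hy0 : y = 0
    · subst hy0; simpa using k.2
    by_cases c1 : f y = 0
    · by_cases c2 : h x = 0
      · rw [c1, c2]; simpa using k.2
      · have i2 : In Sg (y, h) := ⟨cp_sg t h2, hy0, hh⟩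
        refine k.2.trans ((F1 t ⟨k.1, hx, hf⟩ i2 (Or.inr c2)).trans (F1 t i2 ⟨t.conj c k.1 (cp_sg t h2), hx', hf'⟩ (Or.inl ?_)))
        change h (x + (c * h x) • y) ≠ 0
        rw [map_add, map_smul, hy, smul_zero, add_zero]; exact c2
    · have i2 : In Sg (y, h) := ⟨cp_sg t h2, hy0, hh⟩
      refine k.2.trans ((F1 t ⟨k.1, hx, hf⟩ i2 (Or.inl c1)).trans (F1 t i2 ⟨t.conj c k.1 (cp_sg t h2), hx', hf'⟩ (Or.inr ?_)))
      change (f - (c * f y) • h) y ≠ 0
      rw [LinearMap.sub_apply, LinearMap.smul_apply, hy, smul_zero, sub_zero]; exact c1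
  partner := by
    intro x f h hx hf
    have k : Sg x f ∧ Cn Sg a0 (x, f) := by
      rcases h with k1 | k1 | k1
      · exact absurd k1 hx
      · exact absurd k1 hf
      · exact k1
    obtain ⟨y, l, h1, h2, h3⟩ := t.partner k.1 hx hf
    exact ⟨y, l, cp_of h1 fun _ _ => k.2.tail (adj_of k.1 h1 h2 h3), h2, h3⟩

end basic

end CfsgLib.H14MT
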