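import Cfsg.Agent.LibH14MT

/-! Connected systems of transvections: the special linear case (seat helper14). -/

set_option autoImplicit false

namespace CfsgLib.H14MT

open Module

section conn
variable {k V : Type*} [Field k] [AddCommGroup V] [Module k V] {Sg : V → Dual k V → Prop}

theorem nsd (c : k) (f : Dual k V) : (-c) • f = -(c • f) := by
  ext v; simp

theorem nsd1 (f : Dual k V) : (-1 : k) • f = -f := by
  ext v; simp

omit [AddCommGroup V] [Module k V] in
theorem le1 {W : Type*} [AddCommGroup W] [Module k W] [FiniteDimensional k W] (S : Submodule k W) (h : finrank k S ≤ 1)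
    {u v : W} (hu : u ∈ S) (hv : v ∈ S) (hv0 : v ≠ 0) : ∃ c : k, u = c • v := by
  obtain ⟨⟨w, hw⟩, hw2⟩ := finrank_le_one_iff.1 h
  obtain ⟨a, ha⟩ := hw2 ⟨u, hu⟩
  obtain ⟨b, hb⟩ := hw2 ⟨v, hv⟩
  have ha' : a • w = u := congrArg Subtype.val ha
  have hb' : b • w = v := congrArg Subtype.val hb
  have hb0 : b ≠ 0 := by rintro rfl; apply hv0; rw [← hb', zero_smul]
  refine ⟨a / b, ?_⟩
  rw [← ha', ← hb', smul_smul, div_mul_cancel₀ _ hb0]

/-- connected systems -/
structure CT (Sg : V → Dual k V → Prop) : Prop extends TS Sg where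
  conn : ∀ {a b : V × Dual k V}, In Sg a → In Sg b → Cn Sg a b

theorem cn_cp {a0 : V × Dual k V} (h0 : In Sg a0) {a : V × Dual k V} (h : Cn Sg a0 a) : Cn (Cp Sg a0) a0 a := by
  induction h with
  | refl => exact Relation.ReflTransGen.refl
  | tail h1 h2 ih => exact ih.tail ⟨cp_in.2 ⟨h2.l, h1⟩, cp_in.2 ⟨h2.r, h1.tail h2⟩, h2.lr, h2.rl⟩

theorem ct_cp (t : TS Sg) {a0 : V × Dual k V} (h0 : In Sg a0) : CT (Cp Sg a0) where
  toTS := ts_cp t
  conn := by
    intro a b ha hb
    obtain ⟨-, h1⟩ := cp_in.1 ha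
    obtain ⟨-, h2⟩ := cp_in.1 hb
    exact (Cn.symm (cn_cp h0 h1)).trans (cn_cp h0 h2)

/-- centres for an axis -/
def TS.X (t : TS Sg) (f : Dual k V) : Submodule k V where
  carrier := {x | Sg x f}
  add_mem' := t.add_l
  zero_mem' := t.zl f
  smul_mem' c _ h := t.smul_l c h

/-- axes for a centre -/
def TS.Fx (t : TS Sg) (x : V) : Submodule k (Dual k V) where
  carrier := {f | Sg x f}
  add_mem' := t.add_r
  zero_mem' := t.zr x
  smul_mem' c _ h := t.smul_r c h

theorem TS.mem_X (t : TS Sg) {f : Dual k V} {x : V} : x ∈ t.X f ↔ Sg x f := Iff.rfl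
theorem TS.mem_Fx (t : TS Sg) {f : Dual k V} {x : V} : f ∈ t.Fx x ↔ Sg x f := Iff.rfl

variable [FiniteDimensional k V]

theorem conjX (t : TS Sg) {y : V} {h : Dual k V} (hy : Sg y h) (c : k) (f : Dual k V) :
    finrank k (t.X f) ≤ finrank k (t.X (f - (c * f y) • h)) := by
  let φ : V →ₗ[k] V := LinearMap.id + (c • h).smulRight y
  have hφ : ∀ z, φ z = z + (c * h z) • y := fun z => rfl
  have hm : ∀ z ∈ t.X f, φ z ∈ t.X (f - (c * f y) • h) := by
    intro z hz
    rw [hφ]
    exact t.conj c hz hy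
  refine LinearMap.finrank_le_finrank_of_injective (f := φ.restrict hm) ?_
  rw [injective_iff_map_eq_zero]
  rintro ⟨z, hz⟩ h0
  have h1 : z + (c * h z) • y = 0 := congrArg Subtype.val h0
  have h2 := congrArg h h1
  rw [map_add, map_smul, t.ker hy, smul_zero, add_zero, map_zero] at h2
  rw [h2, mul_zero, zero_smul, add_zero] at h1
  exact Subtype.ext h1

theorem conjF (t : TS Sg) {y : V} {h : Dual k V} (hy : Sg y h) (c : k) (x : V) :
    finrank k (t.Fx x) ≤ finrank k (t.Fx (x + (c * h x) • y)) := by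
  let φ : Dual k V →ₗ[k] Dual k V :=
    { toFun := fun f => f - (c * f y) • h
      map_add' := fun a b => by ext v; simp; ring
      map_smul' := fun a b => by ext v; simp; ring }
  have hφ : ∀ f, φ f = f - (c * f y) • h := fun f => rfl
  have hm : ∀ f ∈ t.Fx x, φ f ∈ t.Fx (x + (c * h x) • y) := by
    intro f hf
    rw [hφ]
    exact t.conj c hf hy
  refine LinearMap.finrank_le_finrank_of_injective (f := φ.restrict hm) ?_
  rw [injective_iff_map_eq_zero]
  rintro ⟨f, hf⟩ h0
  have h1 : f - (c * f y) • h = 0 := congrArg Subtype.val h0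
  have h2 := congrArg (fun g : Dual k V => g y) h1
  simp only [LinearMap.sub_apply, LinearMap.smul_apply, t.ker hy, smul_zero, sub_zero, LinearMap.zero_apply] at h2
  rw [h2, mul_zero, zero_smul, sub_zero] at h1
  exact Subtype.ext h1

omit [FiniteDimensional k V] in
theorem X_neg (t : TS Sg) (f : Dual k V) : t.X (-f) = t.X f := by
  ext x
  rw [t.mem_X, t.mem_X]
  constructor
  · intro h; have := t.smul_r (-1) h; rwa [nsd1, neg_neg] at this
  · intro h; have := t.smul_r (-1) h; rwa [nsd1] at this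

omit [FiniteDimensional k V] in
theorem Fx_neg (t : TS Sg) (x : V) : t.Fx (-x) = t.Fx x := by
  ext f
  rw [t.mem_Fx, t.mem_Fx]
  constructor
  · intro h; have := t.smul_l (-1) h; rwa [neg_smul, one_smul, neg_neg] at this
  · intro h; have := t.smul_l (-1) h; rwa [neg_smul, one_smul] at this

theorem dimX_le (t : TS Sg) {a b : V × Dual k V} (h : Adj Sg a b) : finrank k (t.X a.2) ≤ finrank k (t.X b.2) := by
  obtain ⟨x, f⟩ := a
  obtain ⟨y, g⟩ := b
  obtain ⟨h1, h2, h3, h4⟩ := h
  replace h3 : f y ≠ 0 := h3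
  replace h4 : g x ≠ 0 := h4
  have h5 : f x = 0 := t.ker h1.s
  have e1 : finrank k (t.X f) ≤ finrank k (t.X (f - ((f y)⁻¹ * f y) • g)) := conjX t h2.s (f y)⁻¹ f
  rw [inv_mul_cancel₀ h3, one_smul] at e1
  have e2 : finrank k (t.X (f - g)) ≤ finrank k (t.X (f - g - (-(g x)⁻¹ * (f - g) x) • f)) := conjX t h1.s (-(g x)⁻¹) (f - g)
  have e3 : f - g - (-(g x)⁻¹ * (f - g) x) • f = -g := by
    rw [LinearMap.sub_apply, h5, zero_sub, neg_mul_neg, inv_mul_cancel₀ h4, one_smul]
    abel
  rw [e3, X_neg] at e2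
  exact e1.trans e2

theorem dimF_le (t : TS Sg) {a b : V × Dual k V} (h : Adj Sg a b) : finrank k (t.Fx a.1) ≤ finrank k (t.Fx b.1) := by
  obtain ⟨x, f⟩ := a
  obtain ⟨y, g⟩ := b
  obtain ⟨h1, h2, h3, h4⟩ := h
  replace h3 : f y ≠ 0 := h3
  replace h4 : g x ≠ 0 := h4
  have h5 : f x = 0 := t.ker h1.s
  have e1 : finrank k (t.Fx x) ≤ finrank k (t.Fx (x + (-(g x)⁻¹ * g x) • y)) := conjF t h2.s (-(g x)⁻¹) x
  rw [neg_mul, inv_mul_cancel₀ h4, neg_smul, one_smul, ← sub_eq_add_neg] at e1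
  have e2 : finrank k (t.Fx (x - y)) ≤ finrank k (t.Fx (x - y + ((f y)⁻¹ * f (x - y)) • x)) := conjF t h1.s (f y)⁻¹ (x - y)
  have e3 : x - y + ((f y)⁻¹ * f (x - y)) • x = -y := by
    rw [map_sub, h5, zero_sub, mul_neg, inv_mul_cancel₀ h3, neg_smul, one_smul]
    abel
  rw [e3, Fx_neg] at e2
  exact e1.trans e2

theorem CT.dimX (t : CT Sg) {a b : V × Dual k V} (ha : In Sg a) (hb : In Sg b) : finrank k (t.X a.2) ≤ finrank k (t.X b.2) := by
  have := t.conn ha hb
  induction this with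
  | refl => exact le_rfl
  | tail _ h2 ih => exact (ih h2.l).trans (dimX_le t.toTS h2)

theorem CT.dimF (t : CT Sg) {a b : V × Dual k V} (ha : In Sg a) (hb : In Sg b) : finrank k (t.Fx a.1) ≤ finrank k (t.Fx b.1) := by
  have := t.conn ha hb
  induction this with
  | refl => exact le_rfl
  | tail _ h2 ih => exact (ih h2.l).trans (dimF_le t.toTS h2)

/-- span of the centres -/
def UU (Sg : V → Dual k V → Prop) : Submodule k V := Submodule.span k {x | ∃ f, In Sg (x, f)}

/-- intersection of the axes -/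
def CC (Sg : V → Dual k V → Prop) : Submodule k V where
  carrier := {v | ∀ x f, In Sg (x, f) → f v = 0}
  add_mem' := by
    intro a b ha hb x f h
    rw [map_add, ha x f h, hb x f h, add_zero]
  zero_mem' := by intro x f _; exact map_zero f
  smul_mem' := by
    intro c a ha x f h
    rw [map_smul, ha x f h, smul_zero]

omit [FiniteDimensional k V] in
theorem mem_UU {x : V} {f : Dual k V} (h : In Sg (x, f)) : x ∈ UU Sg := Submodule.subset_span ⟨f, h⟩

/-! ### case one -/

/-- the third case occurs -/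
def Third (Sg : V → Dual k V → Prop) : Prop := ∃ (x : V) (f : Dual k V) (y : V) (h : Dual k V), In Sg (x, f) ∧ In Sg (y, h) ∧ f y ≠ 0 ∧ h x = 0

section caseI
variable (t : CT Sg) (h3 : Third Sg)
include t h3

theorem two {x : V} {f : Dual k V} (hx : In Sg (x, f)) (l0 : Dual k V) : ∃ l, Sg x l ∧ ∀ a : k, l ≠ a • l0 := by
  obtain ⟨x1, f1, y1, h1, i1, i2, e1, e2⟩ := h3
  have s1 : Sg x1 h1 := comm' t.toTS i1.s i2.s e2 e1
  have d1 := t.dimF i1 hx
  simp only at d1
  by_contra hc
  push Not at hc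
  have hle : t.Fx x ≤ Submodule.span k {l0} := by
    intro l hl
    obtain ⟨a, ha⟩ := hc l hl
    rw [Submodule.mem_span_singleton]
    exact ⟨a, ha.symm⟩
  have d2 : finrank k (t.Fx x) ≤ 1 := by
    refine (Submodule.finrank_mono hle).trans ((finrank_span_le_card ({l0} : Set (Dual k V))).trans ?_)
    simp
  have d3 : finrank k (t.Fx x1) ≤ 1 := d1.trans d2
  obtain ⟨c, hc⟩ := le1 (W := Dual k V) (t.Fx x1) d3 (u := f1) (v := h1) i1.s s1 i2.f
  apply e1
  rw [hc, LinearMap.smul_apply, t.ker i2.s, smul_zero]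

theorem twoX {x : V} {f : Dual k V} (hx : In Sg (x, f)) : 2 ≤ finrank k (t.X f) := by
  obtain ⟨x1, f1, y1, h1, i1, i2, e1, e2⟩ := h3
  have s1 : Sg x1 h1 := comm' t.toTS i1.s i2.s e2 e1
  have d1 := t.dimX (a := (y1, h1)) i2 hx
  simp only at d1
  by_contra hc
  have d3 : finrank k (t.X h1) ≤ 1 := by omega
  obtain ⟨c, hc⟩ := le1 (W := V) (t.X h1) d3 (u := y1) i2.s s1 i1.x
  apply e1
  rw [hc, map_smul, t.ker i1.s, smul_zero]

omit h3 in
theorem clA {x z : V} {h l0 : Dual k V} (hx : In Sg (x, h)) (hz : Sg z l0) (hhz : h z ≠ 0) (hl : l0 ≠ 0) :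
    ∃ w, Sg w h ∧ l0 w ≠ 0 := by
  by_contra hc
  push Not at hc
  have hle : t.X h ≤ t.X l0 := by
    intro w hw
    exact comm' t.toTS hw hz (hc w hw) hhz
  have hlt : t.X h < t.X l0 := by
    refine lt_of_le_of_ne hle ?_
    intro he
    have : z ∈ t.X h := by rw [he]; exact hz
    exact hhz (t.ker this)
  have h1 := Submodule.finrank_lt_finrank_of_lt hlt
  have h2 := t.dimX (a := (z, l0)) (b := (x, h)) ⟨hz, (ne_of hhz).2, hl⟩ hx
  simp only at h2
  omega

omit h3 [FiniteDimensional k V] in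
theorem clB0 {z z' : V} {h l l' : Dual k V} (hz : Sg z l) (hz' : Sg z' l') (he : h z = h z') (hl : l' z ≠ 0)
    (hw : ∃ w, Sg w h ∧ (l + (l z' / l' z) • l') w ≠ 0) : Sg (z - z') h := by
  obtain ⟨w, hw1, hw2⟩ := hw
  have h1 := t.conj (-(l' z)⁻¹) hz hz'
  have e1 : z + (-(l' z)⁻¹ * l' z) • z' = z - z' := by
    rw [neg_mul, inv_mul_cancel₀ hl, neg_smul, one_smul]; abel
  have e2 : l - (-(l' z)⁻¹ * l z') • l' = l + (l z' / l' z) • l' := by
    rw [neg_mul, nsd, sub_neg_eq_add, div_eq_inv_mul]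
  rw [e1, e2] at h1
  exact comm' t.toTS h1 hw1 (by rw [map_sub, he, sub_self]) hw2

omit h3 [FiniteDimensional k V] in
theorem clB1 {z z' : V} {h l l' : Dual k V} (hz : Sg z l) (hz' : Sg z' l') (he : h z = h z') (hl : l' z ≠ 0 ∨ l z' ≠ 0)
    (hs : ∀ a : k, ∃ w, Sg w h ∧ (l + a • l') w ≠ 0) (hs' : ∃ w, Sg w h ∧ l' w ≠ 0) : Sg (z - z') h := by
  by_cases c1 : l' z = 0
  · have c2 : l z' ≠ 0 := hl.resolve_left (fun c => c c1)
    have h1 : Sg (z' - z) h := by
      apply clB0 t hz' hz he.symm c2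
      rw [c1, zero_div, zero_smul, add_zero]
      exact hs'
    have := t.smul_l (-1) h1
    rwa [neg_smul, one_smul, neg_sub] at this
  · exact clB0 t hz hz' he c1 (hs _)

theorem clB {x z z' : V} {h l0 l0' : Dual k V} (hx : In Sg (x, h)) (hz : In Sg (z, l0)) (hz' : In Sg (z', l0'))
    (he : h z = h z') (hhz : h z ≠ 0) : Sg (z - z') h := by
  have hA : ∀ l, Sg z l → l ≠ 0 → ∃ w, Sg w h ∧ l w ≠ 0 := fun l h1 h2 => clA t hx h1 hhz h2
  have hA' : ∀ l, Sg z' l → l ≠ 0 → ∃ w, Sg w h ∧ l w ≠ 0 := fun l h1 h2 => clA t hx h1 (by rw [← he]; exact hhz) h2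
  obtain ⟨l2, hl2, hl2'⟩ := two t h3 hz l0
  have key : ∃ l, Sg z l ∧ ∀ a : k, ∃ w, Sg w h ∧ (l + a • l0') w ≠ 0 := by
    by_contra hc
    push Not at hc
    obtain ⟨a1, h1⟩ := hc l0 hz.s
    obtain ⟨a2, h2⟩ := hc l2 hl2
    have h5 : a2 • l0 - a1 • l2 = 0 := by
      by_contra h6
      obtain ⟨w, hw, hw'⟩ := hA (a2 • l0 - a1 • l2) (by
        rw [sub_eq_add_neg, ← nsd]
        exact t.add_r (t.smul_r _ hz.s) (t.smul_r _ hl2)) h6
      apply hw'
      have k1 := h1 w hw
      have k2 := h2 w hw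
      simp only [LinearMap.add_apply, LinearMap.smul_apply, LinearMap.sub_apply, smul_eq_mul] at k1 k2 ⊢
      linear_combination a2 * k1 - a1 * k2
    by_cases ha1 : a1 = 0
    · obtain ⟨w, hw, hw'⟩ := hA l0 hz.s hz.f
      apply hw'
      have := h1 w hw
      rw [ha1, zero_smul, add_zero] at this
      exact this
    · apply hl2' (a2 / a1)
      have h6 : a1 • l2 = a2 • l0 := (sub_eq_zero.1 h5).symm
      calc l2 = a1⁻¹ • (a1 • l2) := by rw [smul_smul, inv_mul_cancel₀ ha1, one_smul]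
        _ = (a2 / a1) • l0 := by rw [h6, smul_smul]; congr 1; field_simp
  obtain ⟨l, hl, hstar⟩ := key
  have hs' := hA' l0' hz'.s hz'.f
  by_cases c : l0' z ≠ 0 ∨ l z' ≠ 0
  · exact clB1 t hl hz'.s he c hstar hs'
  · push Not at c
    obtain ⟨w, hw, hw'⟩ := hstar 0
    rw [zero_smul, add_zero] at hw'
    have hhz' : h z' ≠ 0 := by rw [← he]; exact hhz
    have hhw : h w = 0 := t.ker hw
    have k1 := t.conj (h z')⁻¹ hz'.s hw
    rw [inv_mul_cancel₀ hhz', one_smul] at k1
    have k2 : Sg (z - (z' + w)) h := by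
      refine clB1 t hl k1 (by rw [map_add, hhw, add_zero]; exact he) (Or.inr (by rw [map_add, c.2, zero_add]; exact hw')) ?_ ?_
      · intro a
        obtain ⟨w2, hw2, hw2'⟩ := hstar a
        refine ⟨w2, hw2, ?_⟩
        intro h0
        apply hw2'
        have hh2 : h w2 = 0 := t.ker hw2
        simp only [LinearMap.add_apply, LinearMap.smul_apply, LinearMap.sub_apply, smul_eq_mul, hh2] at h0 ⊢
        linear_combination h0
      · obtain ⟨w2, hw2, hw2'⟩ := hs'
        refine ⟨w2, hw2, ?_⟩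
        intro h0
        apply hw2'
        have hh2 : h w2 = 0 := t.ker hw2
        simp only [LinearMap.smul_apply, LinearMap.sub_apply, smul_eq_mul, hh2] at h0
        linear_combination h0
    have k3 := t.add_l k2 hw
    rwa [show z - (z' + w) + w = z - z' by abel] at k3

theorem clC {x z : V} {h l : Dual k V} (hx : In Sg (x, h)) (hz : In Sg (z, l)) (hhz : h z ≠ 0) {u : V} {f : Dual k V}
    (hu : In Sg (u, f)) : u ∈ t.X h ⊔ Submodule.span k {z} := by
  have step : ∀ {v : V} {g : Dual k V}, In Sg (v, g) → h v ≠ 0 → v ∈ t.X h ⊔ Submodule.span k {z} := by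
    intro v g hv hhv
    have h1 : Sg (z - (h z / h v) • v) h := by
      refine clB t h3 hx hz (z' := (h z / h v) • v) (l0' := g) ⟨t.smul_l _ hv.s, ?_, hv.f⟩ ?_ hhz
      · exact smul_ne_zero (div_ne_zero hhz hhv) hv.x
      · rw [map_smul, smul_eq_mul, div_mul_cancel₀ _ hhv]
    have h2 : v = (h v / h z) • (z - (z - (h z / h v) • v)) := by
      rw [sub_sub_cancel, smul_smul]
      have : h v / h z * (h z / h v) = 1 := by field_simp
      rw [this, one_smul]
    rw [h2]
    apply Submodule.smul_mem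
    apply Submodule.sub_mem
    · exact Submodule.mem_sup_right (Submodule.mem_span_singleton_self z)
    · exact Submodule.mem_sup_left h1
  have main : ∀ {b : V × Dual k V}, Cn Sg (z, l) b → b.1 ∈ t.X h ⊔ Submodule.span k {z} := by
    intro b hb
    induction hb with
    | refl => exact Submodule.mem_sup_right (Submodule.mem_span_singleton_self z)
    | @tail p q _ h2 ih =>
      obtain ⟨u, f⟩ := p
      obtain ⟨v, g⟩ := q
      obtain ⟨i1, i2, e1, e2⟩ := h2
      replace e1 : f v ≠ 0 := e1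
      replace e2 : g u ≠ 0 := e2
      change v ∈ _
      replace ih : u ∈ t.X h ⊔ Submodule.span k {z} := ih
      by_cases c1 : h v = 0
      · by_cases c2 : h u = 0
        · obtain ⟨w, hw, y, hy, hwy⟩ := Submodule.mem_sup.1 ih
          obtain ⟨c, rfl⟩ := Submodule.mem_span_singleton.1 hy
          have hc : c = 0 := by
            have h5 := congrArg h hwy
            rw [map_add, map_smul, c2, t.ker hw, zero_add, smul_eq_mul] at h5
            exact (mul_eq_zero.1 h5).resolve_right hhz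
          rw [hc, zero_smul, add_zero] at hwy
          rw [hwy] at hw
          exact Submodule.mem_sup_left (comm' t.toTS i2.s hw c1 e2)
        · have k1 := t.conj 1 i1.s i2.s
          have k2 : In Sg (u + (1 * g u) • v, f - (1 * f v) • g) := by
            refine ⟨k1, ?_, ?_⟩
            · intro h0
              apply c2
              have h5 := congrArg h h0
              dsimp only at h5
              rw [map_add, map_smul, c1, smul_zero, add_zero, map_zero] at h5
              exact h5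
            · intro h0
              apply e1
              have h5 := congrArg (fun m : Dual k V => m v) h0
              simp only [LinearMap.sub_apply, LinearMap.smul_apply, t.ker i2.s, smul_zero, sub_zero, LinearMap.zero_apply] at h5
              exact h5
          have k3 := step k2 (by rw [map_add, map_smul, c1, smul_zero, add_zero]; exact c2)
          have k4 := Submodule.sub_mem _ k3 ih
          rw [add_sub_cancel_left, one_mul] at k4
          have k5 := Submodule.smul_mem _ (g u)⁻¹ k4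
          rwa [smul_smul, inv_mul_cancel₀ e2, one_smul] at k5
      · exact step i2 c1
  exact main (t.conn hz hu)

theorem UU_eq {x z : V} {h l : Dual k V} (hx : In Sg (x, h)) (hz : In Sg (z, l)) (hhz : h z ≠ 0) :
    UU Sg = t.X h ⊔ Submodule.span k {z} := by
  apply le_antisymm
  · unfold UU
    rw [Submodule.span_le]
    rintro u ⟨f, hu⟩
    exact clC t h3 hx hz hhz hu
  · apply sup_le
    · intro w hw
      by_cases hw0 : w = 0
      · rw [hw0]; exact Submodule.zero_mem _
      · exact mem_UU (f := h) ⟨hw, hw0, hx.f⟩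
    · rw [Submodule.span_singleton_le_iff_mem]
      exact mem_UU hz

theorem clD {x u : V} {h : Dual k V} (hx : In Sg (x, h)) (hu : u ∈ UU Sg) (h0 : h u = 0) : Sg u h := by
  obtain ⟨z, l, h1, h2, h4⟩ := t.partner hx.s hx.x hx.f
  have hz : In Sg (z, l) := ⟨h1, (ne_of h2).2, (ne_of h4).1⟩
  rw [UU_eq t h3 hx hz h2] at hu
  obtain ⟨w, hw, y, hy, hwy⟩ := Submodule.mem_sup.1 hu
  obtain ⟨c, rfl⟩ := Submodule.mem_span_singleton.1 hy
  have hc : c = 0 := by
    have h5 := congrArg h hwy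
    rw [map_add, map_smul, h0, t.ker hw, zero_add, smul_eq_mul] at h5
    exact (mul_eq_zero.1 h5).resolve_right h2
  rw [hc, zero_smul, add_zero] at hwy
  rw [← hwy]; exact hw

theorem clE {x : V} {h : Dual k V} (hx : In Sg (x, h)) : Disjoint (UU Sg) (CC Sg) := by
  rw [Submodule.disjoint_def]
  intro u hu hc
  have h1 : Sg u h := clD t h3 hx hu (hc x h hx)
  by_contra h0
  obtain ⟨y, l, h4, h5, h6⟩ := t.partner h1 h0 hx.f
  exact h6 (hc y l ⟨h4, (ne_of h5).2, (ne_of h6).1⟩)

/-- the space of axes -/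
def DD : Submodule k (Dual k V) where
  carrier := {φ | ∃ x, x ≠ 0 ∧ Sg x φ}
  add_mem' := by
    rintro φ ψ ⟨x, hx, h1⟩ ⟨y, hy, h2⟩
    by_cases hφ : φ = 0
    · exact ⟨y, hy, by rw [hφ, zero_add]; exact h2⟩
    by_cases hψ : ψ = 0
    · exact ⟨x, hx, by rw [hψ, add_zero]; exact h1⟩
    have i1 : In Sg (x, φ) := ⟨h1, hx, hφ⟩
    have i2 : In Sg (y, ψ) := ⟨h2, hy, hψ⟩
    have d := twoX t h3 i1
    have : ∃ w, w ≠ 0 ∧ Sg w φ ∧ ψ w = 0 := by
      by_contra hc
      push Not at hc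
      have hinj : Function.Injective (ψ.comp (t.X φ).subtype) := by
        rw [injective_iff_map_eq_zero]
        rintro ⟨w, hw⟩ h0
        by_contra hne
        exact hc w (fun h => hne (Subtype.ext h)) hw h0
      have := LinearMap.finrank_le_finrank_of_injective hinj
      rw [finrank_self] at this
      omega
    obtain ⟨w, hw0, hw1, hw2⟩ := this
    have hwU : w ∈ UU Sg := mem_UU (f := φ) ⟨hw1, hw0, hφ⟩
    exact ⟨w, hw0, t.add_r hw1 (clD t h3 i2 hwU hw2)⟩
  zero_mem' := by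
    obtain ⟨x, f, -, -, i, -⟩ := h3
    exact ⟨x, i.x, t.zr x⟩
  smul_mem' := by
    rintro c φ ⟨x, hx, h1⟩
    exact ⟨x, hx, t.smul_r c h1⟩

/-- restriction of the axes to `U` -/
def resU : DD t h3 →ₗ[k] Dual k (UU Sg) where
  toFun φ := φ.1.comp (UU Sg).subtype
  map_add' _ _ := rfl
  map_smul' _ _ := rfl

theorem resU_inj : Function.Injective (resU t h3) := by
  rw [injective_iff_map_eq_zero]
  rintro ⟨φ, x, hx, h1⟩ h0
  by_contra hne
  have hφ : φ ≠ 0 := fun h => hne (Subtype.ext h)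
  obtain ⟨y, l, h4, h5, h6⟩ := t.partner h1 hx hφ
  have hy : y ∈ UU Sg := mem_UU (f := l) ⟨h4, (ne_of h5).2, (ne_of h6).1⟩
  exact h5 (congrArg (fun m : Dual k (UU Sg) => m ⟨y, hy⟩) h0)

theorem CC_eq : CC Sg = (DD t h3).dualCoannihilator := by
  ext v
  rw [Submodule.mem_dualCoannihilator]
  constructor
  · rintro hv φ ⟨x, hx, h1⟩
    by_cases hφ : φ = 0
    · rw [hφ]; rfl
    · exact hv x φ ⟨h1, hx, hφ⟩
  · intro hv x f hx
    exact hv f ⟨x, hx.x, hx.s⟩

theorem caseI {x : V} {h : Dual k V} (hx : In Sg (x, h)) : IsCompl (UU Sg) (CC Sg) ∧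
    ∀ (ψ : Dual k (UU Sg)) (u : UU Sg), ψ u = 0 → ∃ φ : Dual k V, Sg u φ ∧ ∀ v : UU Sg, φ v = ψ v := by
  have hd := clE t h3 hx
  have e1 : finrank k (DD t h3) + finrank k (CC Sg) = finrank k V := by
    rw [CC_eq t h3]; exact Subspace.finrank_add_finrank_dualCoannihilator_eq _
  have e2 : finrank k (DD t h3) ≤ finrank k (UU Sg) := by
    have := LinearMap.finrank_le_finrank_of_injective (resU_inj t h3)
    rwa [Subspace.dual_finrank_eq] at this
  have e3 : UU Sg ⊔ CC Sg = ⊤ := Submodule.eq_top_of_disjoint _ _ (by omega) hd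
  have e4 : finrank k (UU Sg) + finrank k (CC Sg) = finrank k V := by
    have := Submodule.finrank_sup_add_finrank_inf_eq (UU Sg) (CC Sg)
    rw [e3, hd.eq_bot, finrank_bot, finrank_top] at this
    omega
  refine ⟨⟨hd, codisjoint_iff.2 e3⟩, ?_⟩
  have hsurj : Function.Surjective (resU t h3) := by
    refine (LinearMap.injective_iff_surjective_of_finrank_eq_finrank (K := k) (V := ↥(DD t h3)) (V₂ := Dual k (UU Sg)) ?_).1 (resU_inj t h3)
    have : finrank k (Dual k (UU Sg)) = finrank k (UU Sg) := Subspace.dual_finrank_eq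
    rw [this]
    omega
  intro ψ u hu
  obtain ⟨⟨φ, y, hy, h1⟩, hφ⟩ := hsurj ψ
  have hφ' : ∀ v : UU Sg, φ v = ψ v := fun v => congrArg (fun m : Dual k (UU Sg) => m v) hφ
  refine ⟨φ, ?_, hφ'⟩
  by_cases hφ0 : φ = 0
  · rw [hφ0]; exact t.zr _
  · exact clD t h3 ⟨h1, hy, hφ0⟩ u.2 (by rw [hφ', hu])

end caseI

end conn

end CfsgLib.H14MT
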