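import Cfsg.Agent.LibH14MT1

/-! Connected systems of transvections: the symplectic case (seat helper14). -/

set_option autoImplicit false

namespace CfsgLib.H14MT

open Module

section caseII
variable {k V : Type*} [Field k] [AddCommGroup V] [Module k V] {Sg : V → Dual k V → Prop}
variable (t : CT Sg) (h3 : ¬ Third Sg)

theorem nsp1 (a : V × Dual k V) : (-1 : k) • a = -a := by
  refine Prod.ext ?_ ?_
  · change (-1 : k) • a.1 = - a.1
    rw [neg_smul, one_smul]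
  · exact nsd1 a.2

include h3 in
theorem sy {x y : V} {f h : Dual k V} (hx : In Sg (x, f)) (hy : In Sg (y, h)) (h0 : h x = 0) : f y = 0 := by
  by_contra h1; exact h3 ⟨x, f, y, h, hx, hy, h1, h0⟩

include h3 in
theorem adj' {a b : V × Dual k V} (ha : In Sg a) (hb : In Sg b) (h : a.2 b.1 ≠ 0) : Adj Sg a b :=
  ⟨ha, hb, h, fun h0 => h (sy h3 ha hb h0)⟩

include h3 in
theorem adj'' {a b : V × Dual k V} (ha : In Sg a) (hb : In Sg b) (h : b.2 a.1 ≠ 0) : Adj Sg a b :=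
  (adj' h3 hb ha h).symm

include t h3

theorem one {x : V} {f h : Dual k V} (hx : In Sg (x, f)) (hh : Sg x h) : ∃ c : k, h = c • f := by
  obtain ⟨y, l, h1, h2, h4⟩ := t.partner hx.s hx.x hx.f
  replace h4 : l x ≠ 0 := h4
  replace h2 : f y ≠ 0 := h2
  refine ⟨h y / f y, ?_⟩
  by_contra hne
  have hs : Sg x (h - (h y / f y) • f) := by
    rw [sub_eq_add_neg, ← nsd]; exact t.add_r hh (t.smul_r _ hx.s)
  have hi : In Sg (x, h - (h y / f y) • f) := ⟨hs, hx.x, fun h0 => hne (sub_eq_zero.1 h0)⟩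
  have hy : In Sg (y, l) := ⟨h1, (ne_of h2).2, (ne_of h4).1⟩
  refine h4 (sy h3 hy hi ?_)
  rw [LinearMap.sub_apply, LinearMap.smul_apply, smul_eq_mul, div_mul_cancel₀ _ h2, sub_self]

theorem cm {a b : V × Dual k V} (ha : In Sg a) (hb : In Sg b) : ∃ c, Adj Sg a c ∧ Adj Sg c b := by
  have main : ∀ {b : V × Dual k V}, Cn Sg a b → ∃ c, Adj Sg a c ∧ Adj Sg c b := by
    intro b hb
    induction hb with
    | refl =>
      obtain ⟨x, f⟩ := a
      obtain ⟨y, l, h1, h2, h4⟩ := t.partner ha.s ha.x ha.f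
      have := adj_of ha.s h1 h2 h4
      exact ⟨(y, l), this, this.symm⟩
    | @tail p q _ h2 ih =>
      obtain ⟨c, i1, i2⟩ := ih
      by_cases c1 : a.2 p.1 = 0
      · by_cases c2 : c.2 q.1 = 0
        · obtain ⟨z, l⟩ := c
          obtain ⟨u, f⟩ := p
          replace c1 : a.2 u = 0 := c1
          replace c2 : l q.1 = 0 := c2
          have e1 : a.2 (z + (1 * f z) • u) ≠ 0 := by
            rw [map_add, map_smul, c1, smul_zero, add_zero]; exact i1.lr
          have e2 : (l - (1 * l u) • f) q.1 ≠ 0 := by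
            rw [LinearMap.sub_apply, LinearMap.smul_apply, c2, zero_sub, one_mul, smul_eq_mul]
            exact neg_ne_zero.2 (mul_ne_zero i2.lr h2.lr)
          have i3 : In Sg (z + (1 * f z) • u, l - (1 * l u) • f) :=
            ⟨t.conj 1 i1.r.s i2.r.s, (ne_of e1).2, (ne_of e2).1⟩
          exact ⟨_, adj' h3 ha i3 e1, adj' h3 i3 h2.r e2⟩
        · exact ⟨c, i1, adj' h3 i1.r h2.r c2⟩
      · exact ⟨p, adj' h3 ha h2.l c1, h2⟩
  exact main (t.conn ha hb)

/-- normalised pairs -/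
structure Nz (Sg : V → Dual k V → Prop) (x0 : V) (f0 : Dual k V) (a : V × Dual k V) : Prop where
  s : Sg a.1 a.2
  p : f0 a.1 ≠ 0
  n : a.2 x0 = - f0 a.1

omit t h3 in
theorem Nz.toIn {x0 : V} {f0 : Dual k V} {a : V × Dual k V} (h : Nz Sg x0 f0 a) : In Sg a :=
  ⟨h.s, (ne_of h.p).2, (ne_of (f := a.2) (y := x0) (by rw [h.n]; exact neg_ne_zero.2 h.p)).1⟩

variable {x0 : V} {f0 : Dual k V} (h0 : In Sg (x0, f0))
include h0

theorem nz_ex {y : V} {h : Dual k V} (hy : In Sg (y, h)) (hf : f0 y ≠ 0) :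
    h x0 ≠ 0 ∧ Nz Sg x0 f0 (y, (-(f0 y) / h x0) • h) := by
  have h1 : h x0 ≠ 0 := (adj' h3 h0 hy hf).rl
  refine ⟨h1, t.smul_r _ hy.s, hf, ?_⟩
  change ((-(f0 y) / h x0) • h) x0 = - f0 y
  rw [LinearMap.smul_apply, smul_eq_mul, div_mul_cancel₀ _ h1]

theorem nz_skew {a b : V × Dual k V} (ha : Nz Sg x0 f0 a) (hb : Nz Sg x0 f0 b) : a.2 b.1 = - b.2 a.1 := by
  obtain ⟨y, g⟩ := a
  obtain ⟨z, l⟩ := b
  have e1 : f0 y ≠ 0 := ha.p
  have e2 : f0 z ≠ 0 := hb.p
  have e3 : g x0 = - f0 y := ha.n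
  have e4 : l x0 = - f0 z := hb.n
  change g z = - l y
  have e5 : f0 x0 = 0 := t.ker h0.s
  set c : k := - g z / (f0 y * f0 z) with hc
  have e6 : c * f0 y * f0 z = - g z := by
    rw [hc, mul_assoc, div_mul_cancel₀ _ (mul_ne_zero e1 e2)]
  have i1 : Sg (y + (c * f0 y) • x0) (g - (c * g x0) • f0) := t.conj c ha.s h0.s
  have i2 : In Sg (y + (c * f0 y) • x0, g - (c * g x0) • f0) := by
    refine ⟨i1, (ne_of (f := f0) ?_).2, (ne_of (y := x0) ?_).1⟩
    · change f0 (y + (c * f0 y) • x0) ≠ 0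
      rw [map_add, map_smul, e5, smul_zero, add_zero]; exact e1
    · change (g - (c * g x0) • f0) x0 ≠ 0
      rw [LinearMap.sub_apply, LinearMap.smul_apply, e5, smul_zero, sub_zero, e3]
      exact neg_ne_zero.2 e1
  have e7 : (g - (c * g x0) • f0) z = 0 := by
    rw [LinearMap.sub_apply, LinearMap.smul_apply, smul_eq_mul, e3]
    linear_combination e6
  have e8 : l (y + (c * f0 y) • x0) = 0 := sy h3 hb.toIn i2 e7
  rw [map_add, map_smul, smul_eq_mul, e4] at e8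
  linear_combination e8 + e6

omit t h3 h0 in
/-- the graph -/
def GG (Sg : V → Dual k V → Prop) (x0 : V) (f0 : Dual k V) : Submodule k (V × Dual k V) :=
  Submodule.span k {a | Nz Sg x0 f0 a}

theorem gg_skew {a b : V × Dual k V} (ha : a ∈ GG Sg x0 f0) (hb : b ∈ GG Sg x0 f0) : a.2 b.1 = - b.2 a.1 := by
  unfold GG at ha hb
  induction ha using Submodule.span_induction with
  | mem a ha =>
    induction hb using Submodule.span_induction with
    | mem b hb => exact nz_skew t h3 h0 ha hb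
    | zero => simp
    | add b b' _ _ h1 h2 =>
      change a.2 (b.1 + b'.1) = - ((b.2 + b'.2) a.1)
      rw [map_add, h1, h2, LinearMap.add_apply]; ring
    | smul c b _ h1 =>
      change a.2 (c • b.1) = - ((c • b.2) a.1)
      rw [map_smul, h1, LinearMap.smul_apply, smul_eq_mul, smul_eq_mul]; ring
  | zero => simp
  | add a a' _ _ h1 h2 =>
    change (a.2 + a'.2) b.1 = - (b.2 (a.1 + a'.1))
    rw [map_add, LinearMap.add_apply, h1, h2]; ring
  | smul c a _ h1 =>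
    change (c • a.2) b.1 = - (b.2 (c • a.1))
    rw [map_smul, LinearMap.smul_apply, h1, smul_eq_mul, smul_eq_mul]; ring

theorem gg_ex {y : V} {f : Dual k V} (hy : In Sg (y, f)) : ∃ μ : k, μ ≠ 0 ∧ (y, μ • f) ∈ GG Sg x0 f0 := by
  by_cases c1 : f0 y = 0
  · obtain ⟨⟨z, l⟩, i1, i2⟩ := cm t h3 h0 hy
    have e1 : f0 z ≠ 0 := i1.lr
    obtain ⟨e2, n1⟩ := nz_ex t h3 h0 i1.r e1
    set m : Dual k V := (-(f0 z) / l x0) • l with hm
    have e3 : f x0 = 0 := sy h3 hy h0 c1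
    have e4 : f z ≠ 0 := i2.rl
    have e5 : m x0 = - f0 z := n1.n
    have n2 : Nz Sg x0 f0 (z + (1 * f z) • y, m - (1 * m y) • f) := by
      refine ⟨t.conj 1 n1.s hy.s, ?_, ?_⟩
      · change f0 (z + (1 * f z) • y) ≠ 0
        rw [map_add, map_smul, c1, smul_zero, add_zero]; exact e1
      · change m x0 - (1 * m y) * f x0 = - f0 (z + (1 * f z) • y)
        rw [map_add, map_smul, c1, smul_zero, add_zero, e3, mul_zero, sub_zero, e5]
    have g1 : (z, m) ∈ GG Sg x0 f0 := Submodule.subset_span n1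
    have g2 : (z + (1 * f z) • y, m - (1 * m y) • f) ∈ GG Sg x0 f0 := Submodule.subset_span n2
    have g3 := Submodule.smul_mem _ (f z)⁻¹ (Submodule.sub_mem _ g2 g1)
    have e6 : m y ≠ 0 := by
      rw [hm, LinearMap.smul_apply, smul_eq_mul]
      exact mul_ne_zero (div_ne_zero (neg_ne_zero.2 e1) e2) i2.lr
    refine ⟨-((f z)⁻¹ * m y), neg_ne_zero.2 (mul_ne_zero (inv_ne_zero e4) e6), ?_⟩
    convert g3 using 1
    rw [Prod.mk_sub_mk, Prod.smul_mk]
    congr 1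
    · rw [add_sub_cancel_left, one_mul, smul_smul, inv_mul_cancel₀ e4, one_smul]
    · ext v
      simp only [LinearMap.smul_apply, LinearMap.sub_apply, smul_eq_mul]
      ring
  · obtain ⟨e2, n1⟩ := nz_ex t h3 h0 hy c1
    exact ⟨_, div_ne_zero (neg_ne_zero.2 c1) e2, Submodule.subset_span n1⟩

omit t h3 h0 in
structure NN (Sg : V → Dual k V → Prop) (x0 : V) (f0 : Dual k V) (a : V × Dual k V) : Prop where
  i : In Sg a
  g : a ∈ GG Sg x0 f0

omit h3 h0 in
theorem nn_smul {a : V × Dual k V} (ha : NN Sg x0 f0 a) {c : k} (hc : c ≠ 0) : NN Sg x0 f0 (c • a) :=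
  ⟨⟨t.smul_l c (t.smul_r c ha.i.s), smul_ne_zero hc ha.i.x, smul_ne_zero hc ha.i.f⟩, Submodule.smul_mem _ _ ha.g⟩

theorem nn_ex {y : V} {f : Dual k V} (hy : In Sg (y, f)) : ∃ μ : k, μ ≠ 0 ∧ NN Sg x0 f0 (y, μ • f) := by
  obtain ⟨μ, h1, h2⟩ := gg_ex t h3 h0 hy
  exact ⟨μ, h1, ⟨t.smul_r μ hy.s, hy.x, smul_ne_zero h1 hy.f⟩, h2⟩

theorem nn_S1 {a b : V × Dual k V} (ha : NN Sg x0 f0 a) (hb : NN Sg x0 f0 b) (h : a.2 b.1 ≠ 0) : NN Sg x0 f0 (a + b) := by
  obtain ⟨x, f⟩ := a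
  obtain ⟨y, g⟩ := b
  have e1 : f y ≠ 0 := h
  have e2 : f y = - g x := gg_skew t h3 h0 ha.g hb.g
  have e3 : f x = 0 := t.ker ha.i.s
  have e4 : g y = 0 := t.ker hb.i.s
  have s1 := t.conj (f y)⁻¹ hb.i.s ha.i.s
  change Sg (y + ((f y)⁻¹ * f y) • x) (g - ((f y)⁻¹ * g x) • f) at s1
  have e5 : g x = - f y := by rw [e2, neg_neg]
  rw [e5, mul_neg, inv_mul_cancel₀ e1, nsd1, one_smul, sub_neg_eq_add, add_comm y x, add_comm g f] at s1
  refine ⟨⟨s1, (ne_of (f := f) (y := x + y) ?_).2, (ne_of (f := f + g) (y := x) ?_).1⟩, Submodule.add_mem _ ha.g hb.g⟩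
  · rw [map_add, e3, zero_add]; exact e1
  · rw [LinearMap.add_apply, e3, zero_add, e5]; exact neg_ne_zero.2 e1

theorem nn_S2 {a b c : V × Dual k V} (ha : NN Sg x0 f0 a) (hb : NN Sg x0 f0 b) (hc : NN Sg x0 f0 c) (h : a.2 b.1 = 0)
    (h1 : c.2 a.1 ≠ 0) (h2 : c.2 b.1 ≠ 0) (h4 : c.2 (a.1 + b.1) ≠ 0) : NN Sg x0 f0 (a + b) := by
  have e1 := gg_skew t h3 h0 ha.g hc.g
  have e2 := gg_skew t h3 h0 hb.g hc.g
  have n1 : NN Sg x0 f0 (b + c) := nn_S1 t h3 h0 hb hc (by rw [e2]; exact neg_ne_zero.2 h2)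
  have n2 : NN Sg x0 f0 (a + (b + c)) := nn_S1 t h3 h0 ha n1 (by
    change a.2 (b.1 + c.1) ≠ 0
    rw [map_add, h, zero_add, e1]; exact neg_ne_zero.2 h1)
  have n3 : NN Sg x0 f0 ((-1 : k) • c) := nn_smul t hc (neg_ne_zero.2 one_ne_zero)
  have n4 : NN Sg x0 f0 ((-1 : k) • c + (a + (b + c))) := nn_S1 t h3 h0 n3 n2 (by
    change ((-1 : k) • c.2) (a.1 + (b.1 + c.1)) ≠ 0
    rw [LinearMap.smul_apply, ← add_assoc, map_add, t.ker hc.i.s, add_zero, smul_eq_mul]
    exact mul_ne_zero (neg_ne_zero.2 one_ne_zero) h4)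
  have e : (-1 : k) • c + (a + (b + c)) = a + b := by
    rw [nsp1]; abel
  rwa [e] at n4

omit [AddCommGroup V] [Module k V] t h3 h0 in
theorem choose3 (h2 : (2 : k) ≠ 0) (a b c : k) (hb : b ≠ 0) : ∃ β : k, a + β * b ≠ 0 ∧ c + β * b ≠ 0 := by
  by_contra hc
  push Not at hc
  have k0 := hc 0
  have k1 := hc 1
  have k2 := hc (-1)
  have h2b : 2 * b ≠ 0 := mul_ne_zero h2 hb
  by_cases ha : a = 0
  · subst ha
    have m1 := k1 (by rw [zero_add, one_mul]; exact hb)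
    have m2 := k2 (by rw [zero_add, neg_one_mul]; exact neg_ne_zero.2 hb)
    apply h2b
    linear_combination m1 - m2
  · have m0 := k0 (by rw [zero_mul, add_zero]; exact ha)
    rw [zero_mul, add_zero] at m0
    subst m0
    have m1 : a + 1 * b = 0 := by
      by_contra hh
      have := k1 hh
      rw [zero_add, one_mul] at this
      exact hb this
    have m2 : a + -1 * b = 0 := by
      by_contra hh
      have := k2 hh
      rw [zero_add, neg_one_mul] at this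
      exact neg_ne_zero.2 hb this
    apply h2b
    linear_combination m1 - m2

variable (h2 : (2 : k) ≠ 0)
include h2

/-- the auxiliary point when `c` misses `a` -/
theorem nn_aux {a b c : V × Dual k V} (ha : NN Sg x0 f0 a) (hc : NN Sg x0 f0 c)
    (h1 : c.2 a.1 = 0) (h4 : c.2 b.1 ≠ 0) : ∃ d, NN Sg x0 f0 d ∧ d.2 a.1 ≠ 0 ∧ d.2 b.1 ≠ 0 ∧ d.2 (a.1 + b.1) ≠ 0 := by
  obtain ⟨⟨z, l'⟩, i1, i2⟩ := cm t h3 ha.i hc.i
  obtain ⟨μ, hμ, n1⟩ := nn_ex t h3 h0 i1.r
  have e1 : (μ • l') a.1 ≠ 0 := by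
    rw [LinearMap.smul_apply, smul_eq_mul]; exact mul_ne_zero hμ i1.rl
  have e2 : (μ • l') c.1 ≠ 0 := by
    rw [LinearMap.smul_apply, smul_eq_mul]; exact mul_ne_zero hμ i2.lr
  generalize μ • l' = l at e1 e2 n1
  obtain ⟨β, b1, b2⟩ := choose3 h2 (l b.1) (c.2 b.1) (l (a.1 + b.1)) h4
  by_cases hβ : β = 0
  · subst hβ
    rw [zero_mul, add_zero] at b1 b2
    exact ⟨(z, l), n1, e1, b1, b2⟩
  · have n2 : NN Sg x0 f0 ((z, l) + β • c) := nn_S1 t h3 h0 n1 (nn_smul t hc hβ) (by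
      change l (β • c.1) ≠ 0
      rw [map_smul, smul_eq_mul]; exact mul_ne_zero hβ e2)
    refine ⟨_, n2, ?_, ?_, ?_⟩
    · change (l + β • c.2) a.1 ≠ 0
      rw [LinearMap.add_apply, LinearMap.smul_apply, h1, smul_zero, add_zero]; exact e1
    · change (l + β • c.2) b.1 ≠ 0
      rw [LinearMap.add_apply, LinearMap.smul_apply, smul_eq_mul]; exact b1
    · change (l + β • c.2) (a.1 + b.1) ≠ 0
      rw [LinearMap.add_apply, LinearMap.smul_apply, smul_eq_mul, map_add c.2, h1, zero_add]; exact b2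

theorem nn_S3 {a b c : V × Dual k V} (ha : NN Sg x0 f0 a) (hb : NN Sg x0 f0 b) (hc : NN Sg x0 f0 c)
    (h4 : c.2 (a.1 + b.1) ≠ 0) : NN Sg x0 f0 (a + b) := by
  by_cases h : a.2 b.1 = 0
  · by_cases c1 : c.2 a.1 = 0
    · obtain ⟨d, d1, d2, d3, d4⟩ := nn_aux t h3 h0 h2 (b := b) ha hc c1 (by rwa [map_add, c1, zero_add] at h4)
      exact nn_S2 t h3 h0 ha hb d1 h d2 d3 d4
    · by_cases c2 : c.2 b.1 = 0
      · obtain ⟨d, d1, d2, d3, d4⟩ := nn_aux t h3 h0 h2 (b := a) hb hc c2 c1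
        exact nn_S2 t h3 h0 ha hb d1 h d3 d2 (by rw [add_comm]; exact d4)
      · exact nn_S2 t h3 h0 ha hb hc h c1 c2 h4
  · exact nn_S1 t h3 h0 ha hb h

omit h2 in
theorem gg_UU {v : V} (hv : v ∈ UU Sg) : ∃ φ, (v, φ) ∈ GG Sg x0 f0 := by
  unfold UU at hv
  induction hv using Submodule.span_induction with
  | mem x hx =>
    obtain ⟨f, hf⟩ := hx
    obtain ⟨μ, -, h1⟩ := gg_ex t h3 h0 hf
    exact ⟨_, h1⟩
  | zero => exact ⟨0, Submodule.zero_mem _⟩
  | add x y _ _ h1 h2 =>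
    obtain ⟨φ, h1⟩ := h1
    obtain ⟨ψ, h2⟩ := h2
    exact ⟨φ + ψ, Submodule.add_mem _ h1 h2⟩
  | smul c x _ h1 =>
    obtain ⟨φ, h1⟩ := h1
    exact ⟨c • φ, Submodule.smul_mem _ c h1⟩

omit t h3 h0 h2 in
theorem gg_fst {a : V × Dual k V} (ha : a ∈ GG Sg x0 f0) : a.1 ∈ UU Sg := by
  unfold GG at ha
  induction ha using Submodule.span_induction with
  | mem a ha => exact mem_UU (f := a.2) ha.toIn
  | zero => exact Submodule.zero_mem _
  | add a b _ _ h1 h2 => exact Submodule.add_mem _ h1 h2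
  | smul c a _ h1 => exact Submodule.smul_mem _ c h1

omit t h3 h0 h2 in
theorem gg_CC {a : V × Dual k V} (ha : a ∈ GG Sg x0 f0) {r : V} (hr : r ∈ CC Sg) : a.2 r = 0 := by
  unfold GG at ha
  induction ha using Submodule.span_induction with
  | mem a ha => exact hr a.1 a.2 ha.toIn
  | zero => rfl
  | add a b _ _ h1 h2 => change (a.2 + b.2) r = 0; rw [LinearMap.add_apply, h1, h2, add_zero]
  | smul c a _ h1 => change (c • a.2) r = 0; rw [LinearMap.smul_apply, h1, smul_zero]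

variable (hN : ∀ (u : V) (f : Dual k V) (c0 : V) (f' : Dual k V), In Sg (u, f) → Sg (u + c0) f' → c0 ∈ CC Sg →
  (∀ v ∈ UU Sg, f' v = f v) → c0 = 0)
include hN

theorem nn_add {a b : V × Dual k V} (ha : NN Sg x0 f0 a) (hb : NN Sg x0 f0 b) : NN Sg x0 f0 (a + b) ∨ a + b = 0 := by
  by_cases hc : ∃ c, NN Sg x0 f0 c ∧ c.2 (a.1 + b.1) ≠ 0
  · obtain ⟨c, h1, h4⟩ := hc
    exact Or.inl (nn_S3 t h3 h0 h2 ha hb h1 h4)
  · push Not at hc
    right
    have hr : a.1 + b.1 ∈ CC Sg := by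
      intro y l hl
      obtain ⟨μ, hμ, n⟩ := nn_ex t h3 h0 hl
      have := hc _ n
      change (μ • l) (a.1 + b.1) = 0 at this
      rw [LinearMap.smul_apply, smul_eq_mul] at this
      exact (mul_eq_zero.1 this).resolve_left hμ
    have n3 : NN Sg x0 f0 ((-1 : k) • b) := nn_smul t hb (neg_ne_zero.2 one_ne_zero)
    have e2 : ∀ v ∈ UU Sg, a.2 v = ((-1 : k) • b.2) v := by
      intro v hv
      obtain ⟨ψ, hψ⟩ := gg_UU t h3 h0 hv
      have k1 : a.2 v = - ψ a.1 := gg_skew t h3 h0 ha.g hψ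
      have k2 : b.2 v = - ψ b.1 := gg_skew t h3 h0 hb.g hψ
      have k3 : ψ (a.1 + b.1) = 0 := gg_CC hψ hr
      rw [map_add] at k3
      rw [LinearMap.smul_apply, smul_eq_mul, k1, k2]
      linear_combination -k3
    have e1 : a.1 + b.1 = 0 := by
      refine hN ((-1 : k) • b.1) ((-1 : k) • b.2) (a.1 + b.1) a.2 n3.i ?_ hr e2
      rw [show (-1 : k) • b.1 + (a.1 + b.1) = a.1 by rw [neg_smul, one_smul]; abel]
      exact ha.i.s
    have e3 : a.1 = (-1 : k) • b.1 := by rw [neg_smul, one_smul]; exact eq_neg_of_add_eq_zero_left e1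
    have e4 : a.2 = (-1 : k) • b.2 := by
      have hs := ha.i.s
      rw [e3] at hs
      obtain ⟨c, hc'⟩ := one t h3 n3.i hs
      change a.2 = c • ((-1 : k) • b.2) at hc'
      obtain ⟨y, l, h5, h6, h7⟩ := t.partner ha.i.s ha.i.x ha.i.f
      have hy : y ∈ UU Sg := mem_UU (f := l) ⟨h5, (ne_of h6).2, (ne_of h7).1⟩
      have m1 := e2 y hy
      have m2 : ((-1 : k) • b.2) y ≠ 0 := by rw [← m1]; exact h6
      have m3 : a.2 y = c * ((-1 : k) • b.2) y := by
        rw [hc', LinearMap.smul_apply, smul_eq_mul]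
      have m4 : c = 1 := by
        have : (c - 1) * ((-1 : k) • b.2) y = 0 := by linear_combination m1 - m3
        exact sub_eq_zero.1 ((mul_eq_zero.1 this).resolve_right m2)
      rw [hc', m4, one_smul]
    have e5 : a = (-1 : k) • b := Prod.ext e3 e4
    rw [e5, nsp1, neg_add_cancel]

theorem gg_nn {a : V × Dual k V} (ha : a ∈ GG Sg x0 f0) : NN Sg x0 f0 a ∨ a = 0 := by
  unfold GG at ha
  induction ha using Submodule.span_induction with
  | mem a ha => exact Or.inl ⟨ha.toIn, Submodule.subset_span ha⟩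
  | zero => exact Or.inr rfl
  | add a b _ _ h1 h4 =>
    rcases h1 with h1 | rfl
    · rcases h4 with h4 | rfl
      · exact nn_add t h3 h0 h2 hN h1 h4
      · rw [add_zero]; exact Or.inl h1
    · rw [zero_add]; exact h4
  | smul c a _ h1 =>
    rcases h1 with h1 | rfl
    · by_cases hc : c = 0
      · right; rw [hc, zero_smul]
      · exact Or.inl (nn_smul t h1 hc)
    · right; rw [smul_zero]

theorem clE2 : Disjoint (UU Sg) (CC Sg) := by
  rw [Submodule.disjoint_def]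
  intro r hu hr
  obtain ⟨φ, hφ⟩ := gg_UU t h3 h0 hu
  rcases gg_nn t h3 h0 h2 hN hφ with h1 | h1
  · obtain ⟨y, l, h5, h6, h7⟩ := t.partner h1.i.s h1.i.x h1.i.f
    exact absurd (hr y l ⟨h5, (ne_of h6).2, (ne_of h7).1⟩) h7
  · exact congrArg Prod.fst h1

theorem fst_inj : Function.Injective ((LinearMap.fst k V (Dual k V)).comp (GG Sg x0 f0).subtype) := by
  rw [injective_iff_map_eq_zero]
  rintro ⟨a, ha⟩ h
  change a.1 = 0 at h
  rcases gg_nn t h3 h0 h2 hN ha with h1 | h1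
  · exact absurd h h1.i.x
  · exact Subtype.ext h1

theorem snd_inj : Function.Injective ((LinearMap.snd k V (Dual k V)).comp (GG Sg x0 f0).subtype) := by
  rw [injective_iff_map_eq_zero]
  rintro ⟨a, ha⟩ h
  change a.2 = 0 at h
  rcases gg_nn t h3 h0 h2 hN ha with h1 | h1
  · exact absurd h h1.i.f
  · exact Subtype.ext h1

omit h2 hN in
theorem fst_range : LinearMap.range ((LinearMap.fst k V (Dual k V)).comp (GG Sg x0 f0).subtype) = UU Sg := by
  ext v
  rw [LinearMap.mem_range]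
  constructor
  · rintro ⟨⟨a, ha⟩, rfl⟩
    exact gg_fst ha
  · intro hv
    obtain ⟨φ, hφ⟩ := gg_UU t h3 h0 hv
    exact ⟨⟨_, hφ⟩, rfl⟩

omit h2 hN in
theorem CC_eq2 : CC Sg = (LinearMap.range ((LinearMap.snd k V (Dual k V)).comp (GG Sg x0 f0).subtype)).dualCoannihilator := by
  ext v
  rw [Submodule.mem_dualCoannihilator]
  constructor
  · rintro hv φ hφ
    obtain ⟨⟨a, ha⟩, rfl⟩ := LinearMap.mem_range.1 hφ
    exact gg_CC ha hv
  · intro hv x f hx
    obtain ⟨μ, hμ, h1⟩ := gg_ex t h3 h0 hx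
    have := hv (μ • f) (LinearMap.mem_range.2 ⟨⟨_, h1⟩, rfl⟩)
    rw [LinearMap.smul_apply, smul_eq_mul] at this
    exact (mul_eq_zero.1 this).resolve_left hμ

theorem caseII0 [FiniteDimensional k V] : IsCompl (UU Sg) (CC Sg) ∧
    ∃ B : LinearMap.BilinForm k (UU Sg), B.IsAlt ∧ (∀ u, (∀ v, B u v = 0) → u = 0) ∧
      (∀ u : UU Sg, ∃ φ : Dual k V, Sg u φ ∧ ∀ v : UU Sg, φ v = B u v) ∧
      (∀ (x : UU Sg) (f : Dual k V), Sg x f → x ≠ 0 → ∃ μ : k, ∀ v : UU Sg, f v = μ * B x v) := by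
  have hd := clE2 t h3 h0 h2 hN
  have r1 : finrank k (GG Sg x0 f0) = finrank k (UU Sg) := by
    rw [← fst_range t h3 h0]
    exact (LinearMap.finrank_range_of_inj (fst_inj t h3 h0 h2 hN)).symm
  have r2 : finrank k (LinearMap.range ((LinearMap.snd k V (Dual k V)).comp (GG Sg x0 f0).subtype)) = finrank k (GG Sg x0 f0) :=
    LinearMap.finrank_range_of_inj (snd_inj t h3 h0 h2 hN)
  have e1 : finrank k (LinearMap.range ((LinearMap.snd k V (Dual k V)).comp (GG Sg x0 f0).subtype)) + finrank k (CC Sg) = finrank k V := by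
    rw [CC_eq2 t h3 h0]; exact Subspace.finrank_add_finrank_dualCoannihilator_eq _
  have e3 : UU Sg ⊔ CC Sg = ⊤ := Submodule.eq_top_of_disjoint _ _ (by omega) hd
  refine ⟨⟨hd, codisjoint_iff.2 e3⟩, ?_⟩
  let e : GG Sg x0 f0 ≃ₗ[k] UU Sg :=
    (LinearEquiv.ofInjective _ (fst_inj t h3 h0 h2 hN)).trans (LinearEquiv.ofEq _ _ (fst_range t h3 h0))
  have he : ∀ a : GG Sg x0 f0, ((e a : UU Sg) : V) = a.1.1 := fun a => rfl
  let R : Dual k V →ₗ[k] Dual k (UU Sg) :=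
    { toFun := fun φ => φ.comp (UU Sg).subtype
      map_add' := fun _ _ => rfl
      map_smul' := fun _ _ => rfl }
  let B : LinearMap.BilinForm k (UU Sg) := R.comp (((LinearMap.snd k V (Dual k V)).comp (GG Sg x0 f0).subtype).comp e.symm.toLinearMap)
  have hB : ∀ u v : UU Sg, B u v = (e.symm u).1.2 v := fun u v => rfl
  have hsk : ∀ u v : UU Sg, B u v = - B v u := by
    intro u v
    rw [hB, hB]
    have h1 : ((e.symm v).1.1 : V) = v := by rw [← he, e.apply_symm_apply]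
    have h5 : ((e.symm u).1.1 : V) = u := by rw [← he, e.apply_symm_apply]
    have := gg_skew t h3 h0 (e.symm u).2 (e.symm v).2
    rwa [h1, h5] at this
  refine ⟨B, ?_, ?_, ?_, ?_⟩
  · intro u
    have := hsk u u
    have h5 : 2 * B u u = 0 := by linear_combination this
    exact (mul_eq_zero.1 h5).resolve_left h2
  · intro u hu
    have h5 : ((e.symm u).1.1 : V) = u := by rw [← he, e.apply_symm_apply]
    rcases gg_nn t h3 h0 h2 hN (e.symm u).2 with h1 | h1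
    · obtain ⟨y, l, h7, h6, h8⟩ := t.partner h1.i.s h1.i.x h1.i.f
      have hy : y ∈ UU Sg := mem_UU (f := l) ⟨h7, (ne_of h6).2, (ne_of h8).1⟩
      exact absurd (hu ⟨y, hy⟩) h6
    · have : e.symm u = 0 := Subtype.ext h1
      rw [← e.apply_symm_apply u, this, map_zero]
  · intro u
    have h5 : ((e.symm u).1.1 : V) = u := by rw [← he, e.apply_symm_apply]
    refine ⟨(e.symm u).1.2, ?_, fun v => rfl⟩
    rcases gg_nn t h3 h0 h2 hN (e.symm u).2 with h1 | h1
    · rw [← h5]; exact h1.i.s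
    · rw [h1]; exact t.zr _
  · intro x f hs hx
    have h5 : ((e.symm x).1.1 : V) = x := by rw [← he, e.apply_symm_apply]
    rcases gg_nn t h3 h0 h2 hN (e.symm x).2 with h1 | h1
    · have h6 : In Sg ((x : V), (e.symm x).1.2) := by
        have := h1.i
        rw [← h5]; exact this
      obtain ⟨c, hc⟩ := one t h3 h6 hs
      refine ⟨c, fun v => ?_⟩
      rw [hc, hB, LinearMap.smul_apply, smul_eq_mul]
    · exfalso
      apply hx
      have : e.symm x = 0 := Subtype.ext h1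
      rw [← e.apply_symm_apply x, this, map_zero]

end caseII

end CfsgLib.H14MT
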