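import Cfsg.Agent.LibFusionH12
import Cfsg.Agent.LibComp2

/-! Strong fusion and normal subgroups (seat helper14). -/

set_option autoImplicit false

namespace CfsgLib.H14SF

open Subgroup CfsgLib.FusionH12

variable {G : Type*} [Group G]

/-- on `A`, the element `g` agrees with an element normalising `W` -/
def okA (W A : Subgroup G) (g : G) : Prop := ∃ h ∈ normalizer (W : Set G), ∀ a ∈ A, g * a * g⁻¹ = h * a * h⁻¹

theorem okA_mul {W A : Subgroup G} {g g' : G} (h1 : okA W A g) (h2 : okA W (cj g A) g') : okA W A (g' * g) := by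
  obtain ⟨h, hh, e1⟩ := h1
  obtain ⟨h', hh', e2⟩ := h2
  refine ⟨h' * h, mul_mem hh' hh, fun a ha => ?_⟩
  have e3 := e2 _ (conj_mem_cj ha)
  have e4 := e1 a ha
  calc g' * g * a * (g' * g)⁻¹ = g' * (g * a * g⁻¹) * g'⁻¹ := by group
    _ = h' * (g * a * g⁻¹) * h'⁻¹ := e3
    _ = h' * (h * a * h⁻¹) * h'⁻¹ := by rw [e4]
    _ = _ := by group

theorem okA_inv {W A : Subgroup G} {g : G} (h1 : okA W A g) : okA W (cj g A) g⁻¹ := by
  obtain ⟨h, hh, e1⟩ := h1
  refine ⟨h⁻¹, inv_mem hh, fun b hb => ?_⟩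
  rw [mem_cj] at hb
  have e2 := e1 _ hb
  have e3 : g * (g⁻¹ * b * g) * g⁻¹ = b := by group
  rw [e3] at e2
  have e4 : g⁻¹ * b * g = h⁻¹ * (h * (g⁻¹ * b * g) * h⁻¹) * h := by group
  rw [← e2] at e4
  simpa using e4

theorem okA_anti {W A B : Subgroup G} {g : G} (h1 : okA W A g) (h : B ≤ A) : okA W B g := by
  obtain ⟨x, hx, e⟩ := h1
  exact ⟨x, hx, fun a ha => e a (h ha)⟩

theorem okA_nrm {W A : Subgroup G} {g : G} (h : g ∈ normalizer (W : Set G)) : okA W A g := ⟨g, h, fun _ _ => rfl⟩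

theorem okA_cent {W A : Subgroup G} {g : G} (h : ∀ a ∈ A, g * a * g⁻¹ = a) : okA W A g :=
  ⟨1, one_mem _, fun a ha => by rw [h a ha]; group⟩

section main
variable [Finite G] {p : ℕ} [hp : Fact p.Prime] {N S K W : Subgroup G}

/-- the elements of `N` acting trivially on `A ∩ N` and normalising `A` -/
def YY (N A : Subgroup G) : Subgroup G := N ⊓ normalizer (A : Set G) ⊓ centralizer ((A ⊓ N : Subgroup G) : Set G)

theorem mem_YY {A : Subgroup G} {y : G} : y ∈ YY N A ↔ y ∈ N ∧ y ∈ normalizer (A : Set G) ∧ ∀ d ∈ A ⊓ N, y * d * y⁻¹ = d := by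
  unfold YY
  rw [mem_inf, mem_inf, mem_centralizer_iff', and_assoc]

theorem YY_pow [N.Normal] {A : Subgroup G} {y : G} (hy : y ∈ YY N A) {a : G} (ha : a ∈ A) :
    y ^ (Nat.card (A ⊓ N : Subgroup G)) * a * (y ^ (Nat.card (A ⊓ N : Subgroup G)))⁻¹ = a := by
  obtain ⟨h1, h2, h3⟩ := mem_YY.1 hy
  set z := y * a * y⁻¹ * a⁻¹ with hz
  have hzA : z ∈ A := A.mul_mem ((Subgroup.mem_normalizer_iff.1 h2 a).1 ha) (A.inv_mem ha)
  have hzN : z ∈ N := by
    have : z = y * (a * y⁻¹ * a⁻¹) := by rw [hz]; group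
    rw [this]
    exact N.mul_mem h1 (Subgroup.Normal.conj_mem inferInstance _ (N.inv_mem h1) a)
  have h4 : y * z * y⁻¹ = z := h3 z ⟨hzA, hzN⟩
  have h5 : ∀ n : ℕ, y ^ n * a * (y ^ n)⁻¹ = z ^ n * a := by
    intro n
    induction n with
    | zero => simp
    | succ n ih =>
      have h6 : y * z ^ n * y⁻¹ = z ^ n := by rw [← conj_pow, h4]
      calc y ^ (n + 1) * a * (y ^ (n + 1))⁻¹ = y * (y ^ n * a * (y ^ n)⁻¹) * y⁻¹ := by rw [pow_succ']; group
        _ = y * (z ^ n * a) * y⁻¹ := by rw [ih]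
        _ = (y * z ^ n * y⁻¹) * (y * a * y⁻¹ * a⁻¹) * a := by group
        _ = z ^ n * z * a := by rw [h6]
        _ = z ^ (n + 1) * a := by rw [pow_succ]
  rw [h5]
  have : z ^ Nat.card (A ⊓ N : Subgroup G) = 1 := by
    have := pow_card_eq_one' (x := (⟨z, hzA, hzN⟩ : (A ⊓ N : Subgroup G)))
    exact congrArg Subtype.val this
  rw [this, one_mul]

theorem YY_split [N.Normal] {A T : Subgroup G} (hA : IsPGroup p A) (hT : SylIn p T (YY N A)) {y : G} (hy : y ∈ YY N A) :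
    ∃ t ∈ T, ∃ c ∈ YY N A, (∀ a ∈ A, c * a * c⁻¹ = a) ∧ y = t * c := by
  set C : Subgroup G := YY N A ⊓ centralizer (A : Set G) with hC
  have hYn : YY N A ≤ normalizer (C : Set G) := by
    intro x hx
    rw [mem_nrm, hC, cj_inf, cj_centralizer, cj_of_mem hx, cj_of_mem_nrm (mem_YY.1 hx).2.1]
  have hCY : C ≤ YY N A := inf_le_left
  obtain ⟨k, hk⟩ := (hA.to_le (inf_le_left : A ⊓ N ≤ A)).exists_card_eq
  have h1 : ∃ m : ℕ, C.relIndex (YY N A) = p ^ m := by
    haveI : (C.subgroupOf (YY N A)).Normal := by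
      rw [Subgroup.normal_subgroupOf_iff_le_normalizer hCY]; exact hYn
    have h2 : IsPGroup p (YY N A ⧸ C.subgroupOf (YY N A)) := by
      intro x
      obtain ⟨⟨x, hx⟩, rfl⟩ := QuotientGroup.mk_surjective x
      refine ⟨k, ?_⟩
      rw [← QuotientGroup.mk_pow, QuotientGroup.eq_one_iff, Subgroup.mem_subgroupOf]
      refine ⟨(YY N A).pow_mem hx _, (mem_centralizer_iff'.2 fun a ha => ?_ : x ^ p ^ k ∈ centralizer (A : Set G))⟩
      have := YY_pow hx ha
      rw [hk] at this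
      exact this
    obtain ⟨m, hm⟩ := h2.exists_card_eq
    exact ⟨m, hm⟩
  obtain ⟨m, hm⟩ := h1
  have h2 : (T ⊔ C).relIndex (YY N A) ∣ p ^ m := by
    rw [← hm]; exact Subgroup.relIndex_dvd_of_le_left _ le_sup_right
  have h3 : (T ⊔ C).relIndex (YY N A) ∣ T.relIndex (YY N A) := Subgroup.relIndex_dvd_of_le_left _ le_sup_left
  obtain ⟨j, hj, h4⟩ := (Nat.dvd_prime_pow hp.out).1 h2
  have h5 : j = 0 := by
    by_contra hj0
    apply hT.idx
    exact (dvd_pow_self p hj0).trans (h4 ▸ h3)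
  rw [h5, pow_zero, Subgroup.relIndex_eq_one] at h4
  obtain ⟨t, ht, c, hc, h6⟩ := CfsgLib.Comp2.exists_mul_of_mem_sup (hT.le.trans hYn) (h4 hy)
  exact ⟨t, ht, c, hc.1, mem_centralizer_iff'.1 hc.2, h6⟩

/-- the standing hypotheses -/
structure Hyp (p : ℕ) (N S K W : Subgroup G) : Prop where
  hS : SylIn p S ⊤
  hWQ : normalizer ((S ⊓ N : Subgroup G) : Set G) ≤ normalizer (W : Set G)
  hKN : K ≤ N
  hKW : K ≤ normalizer (W : Set G)
  hQK : S ⊓ N ≤ K
  hSK : S ≤ normalizer (K : Set G)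
  ctl : ∀ D ≤ S ⊓ N, ∀ n ∈ N, cj n D ≤ S ⊓ N → ∃ h ∈ K, ∃ c ∈ N, (∀ d ∈ D, c * d * c⁻¹ = d) ∧ n = h * c

theorem step3 [N.Normal] (H : Hyp p N S K W) {A : Subgroup G} (hA : A ≤ S)
    (hT : SylIn p (S ⊓ N ⊓ normalizer (A : Set G)) (N ⊓ normalizer (A : Set G)))
    (IH : ∀ B ≤ S, Nat.card A < Nat.card B → ∀ m ∈ N, cj m B ≤ S → okA W B m)
    {n : G} (hn : n ∈ N ⊓ normalizer (A : Set G)) : okA W A n := by
  set Q : Subgroup G := S ⊓ N with hQ
  set M : Subgroup G := N ⊓ normalizer (A : Set G) with hM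
  set Y : Subgroup G := YY N A with hY
  have hAp : IsPGroup p A := H.hS.pg.to_le hA
  have hYM : Y ≤ M := inf_le_left
  have hMY : M ≤ normalizer (Y : Set G) := by
    intro x hx
    have e1 : cj x A = A := cj_of_mem_nrm hx.2
    rw [mem_nrm, hY, YY, cj_inf, cj_inf, cj_normalizer, cj_centralizer, cj_inf, cj_of_normal, e1]
  have hTY : SylIn p (Q ⊓ normalizer (A : Set G) ⊓ Y) Y := hT.inf_normal hYM hMY
  set T : Subgroup G := Q ⊓ normalizer (A : Set G) ⊓ Y with hTdef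
  have hTS : T ≤ S := inf_le_left.trans (inf_le_left.trans inf_le_left)
  have hTN : T ≤ normalizer (A : Set G) := inf_le_left.trans inf_le_right
  by_cases hTA : T ≤ A
  · -- case b
    obtain ⟨hnN, hnA⟩ := hn
    have hAN : A ⊓ N ≤ Q := inf_le_inf hA le_rfl
    have hcA : cj n A = A := cj_of_mem_nrm hnA
    obtain ⟨h, hh, c, hcN, hcc, hhc⟩ := H.ctl (A ⊓ N) hAN n hnN (by rw [cj_inf, hcA, cj_of_normal]; exact hAN)
    -- the group C_K(A ∩ N)
    set CK : Subgroup G := K ⊓ centralizer ((A ⊓ N : Subgroup G) : Set G) with hCK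
    have hAK : A ≤ normalizer (K : Set G) := hA.trans H.hSK
    have hACK : A ≤ normalizer (CK : Set G) := by
      intro a ha
      have e1 : cj a A = A := cj_of_mem ha
      rw [mem_nrm, hCK, cj_inf, cj_centralizer, cj_inf, cj_of_normal a N, e1, cj_of_mem_nrm (hAK ha)]
    set J : Subgroup G := A ⊔ CK with hJ
    have hAJ : A ≤ J := le_sup_left
    -- Sylow p-subgroups of Y are inside A
    have hYA : ∀ y ∈ Y, (∃ k : ℕ, y ^ p ^ k = 1) → y ∈ A := by
      intro y hy hyp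
      have hTn : Y ≤ normalizer (T : Set G) := by
        intro x hx
        rw [Subgroup.mem_normalizer_iff]
        have hx3 := (mem_YY.1 hx).2.2
        have hTc : ∀ t ∈ T, x * t * x⁻¹ = t := fun t ht => hx3 t ⟨hTA ht, (ht.1.1).2⟩
        intro t
        constructor
        · intro ht; rw [hTc t ht]; exact ht
        · intro ht
          have := hTc _ ht
          have e : x * t * x⁻¹ = t := by
            have h5 : x * (x * t * x⁻¹) = x * t := by
              calc x * (x * t * x⁻¹) = (x * (x * t * x⁻¹) * x⁻¹) * x := by group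
                _ = x * t * x⁻¹ * x := by rw [this]
                _ = x * t := by group
            exact mul_left_cancel h5
          rwa [e] at ht
      have hz : IsPGroup p (zpowers y) := by
        obtain ⟨k, hk⟩ := hyp
        exact IsPGroup.of_card (n := (Nat.card (zpowers y)).factorization p) (by
          have h1 : Nat.card (zpowers y) ∣ p ^ k := by
            rw [Nat.card_zpowers]; exact orderOf_dvd_of_pow_eq_one hk
          obtain ⟨j, -, h2⟩ := (Nat.dvd_prime_pow hp.out).1 h1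
          rw [h2, hp.out.factorization_pow]; simp)
      have hzY : zpowers y ≤ Y := by rw [zpowers_le]; exact hy
      obtain ⟨b, hb, hb'⟩ := hTY.exists_conj_le hz hzY
      have h1 : zpowers y ≤ T := by
        have := cj_le_iff.1 hb'
        rwa [cj_of_mem_nrm (hTn (inv_mem hb))] at this
      exact hTA (h1 (mem_zpowers y))
    have hAsyl : SylIn p A J := by
      obtain ⟨B, hAB, hB⟩ := SylIn.exists_ge hAp hAJ
      by_cases hBA : A = B
      · rw [hBA]; exact hB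
      · exfalso
        have hlt := lt_nrm_inf hB.pg (lt_of_le_of_ne hAB hBA)
        obtain ⟨b, hb, hbA⟩ := SetLike.exists_of_lt hlt
        apply hbA
        obtain ⟨a, ha, k, hk, hbk⟩ := CfsgLib.Comp2.exists_mul_of_mem_sup hACK (hB.le hb.1)
        have hk' : k = a⁻¹ * b := by rw [hbk]; group
        have hkB : k ∈ B := by rw [hk']; exact B.mul_mem (B.inv_mem (hAB ha)) hb.1
        have hkA : k ∈ normalizer (A : Set G) := by
          rw [hk']; exact mul_mem (inv_mem (le_normalizer ha)) hb.2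
        have hkY : k ∈ Y := mem_YY.2 ⟨H.hKN hk.1, hkA, mem_centralizer_iff'.1 hk.2⟩
        have hkp : ∃ j : ℕ, k ^ p ^ j = 1 := by
          obtain ⟨j, hj⟩ := hB.pg ⟨k, hkB⟩
          exact ⟨j, congrArg Subtype.val hj⟩
        rw [hbk]
        exact A.mul_mem ha (hYA k hkY hkp)
    have hcJ : cj c A ≤ J := by
      rw [cj_le']
      intro a ha
      have e1 : c * a * c⁻¹ = h⁻¹ * (n * a * n⁻¹) * h := by rw [hhc]; group
      have ha' : n * a * n⁻¹ ∈ A := (Subgroup.mem_normalizer_iff.1 hnA a).1 ha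
      set a' := n * a * n⁻¹ with ha'def
      -- c a c⁻¹ = k a' with k ∈ K
      have e2 : c * a * c⁻¹ = (h⁻¹ * (a' * h * a'⁻¹)) * a' := by rw [e1]; group
      have hk1 : h⁻¹ * (a' * h * a'⁻¹) ∈ K := K.mul_mem (K.inv_mem hh) ((Subgroup.mem_normalizer_iff.1 (hAK ha') h).1 hh)
      -- and it centralises A ∩ N modulo ...
      have e3 : h⁻¹ * (a' * h * a'⁻¹) = c * a * c⁻¹ * a'⁻¹ := by rw [e2]; group
      -- c a c⁻¹ a'⁻¹ = (c a c⁻¹ a⁻¹) (a a'⁻¹)
      have hcc' : c ∈ centralizer ((A ⊓ N : Subgroup G) : Set G) := mem_centralizer_iff'.2 hcc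
      have hAc : A ≤ normalizer ((centralizer ((A ⊓ N : Subgroup G) : Set G) : Subgroup G) : Set G) := by
        intro x hx
        rw [mem_nrm, cj_centralizer, cj_inf, cj_of_mem hx, cj_of_normal]
      have h4 : c * a * c⁻¹ * a⁻¹ ∈ centralizer ((A ⊓ N : Subgroup G) : Set G) := by
        have : c * a * c⁻¹ * a⁻¹ = c * (a * c⁻¹ * a⁻¹) := by group
        rw [this]
        exact mul_mem hcc' ((Subgroup.mem_normalizer_iff.1 (hAc ha) _).1 (inv_mem hcc'))
      have h4K : c * a * c⁻¹ * a⁻¹ ∈ K := by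
        have e5 : c * a * c⁻¹ * a⁻¹ = (h⁻¹ * (a' * h * a'⁻¹)) * (a' * a⁻¹) := by rw [e3]; group
        rw [e5]
        refine K.mul_mem hk1 (H.hQK (hAN ⟨A.mul_mem ha' (A.inv_mem ha), ?_⟩))
        have : a' * a⁻¹ = n * (a * n⁻¹ * a⁻¹) := by rw [ha'def]; group
        rw [this]
        exact N.mul_mem hnN (Subgroup.Normal.conj_mem inferInstance _ (N.inv_mem hnN) a)
      have e6 : c * a * c⁻¹ = (c * a * c⁻¹ * a⁻¹) * a := by group
      rw [e6]
      exact J.mul_mem ((le_sup_right : CK ≤ J) ⟨h4K, h4⟩) (hAJ ha)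
    obtain ⟨d, hd, hdc⟩ := hAsyl.exists_conj_le (isPGroup_cj hAp) hcJ
    obtain ⟨a1, ha1, d1, hd1, hda⟩ := CfsgLib.Comp2.exists_mul_of_mem_sup hACK hd
    have h6 : cj (d1 * c) A ≤ A := by
      have e1 : d1 = a1⁻¹ * d := by rw [hda]; group
      rw [e1, mul_assoc, cj_mul, cj_mul]
      rw [← cj_of_mem (A.inv_mem ha1), cj_le_cj, cj_of_mem (A.inv_mem ha1)]
      exact hdc
    have h7 : cj (d1 * c) A = A := Subgroup.eq_of_le_of_card_ge h6 (by rw [card_cj])
    have h8 : d1 * c ∈ Y := mem_YY.2 ⟨N.mul_mem (H.hKN hd1.1) hcN, mem_nrm.2 h7, fun x hx => by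
      have e1 := hcc x hx
      have e2 := mem_centralizer_iff'.1 hd1.2 x hx
      calc d1 * c * x * (d1 * c)⁻¹ = d1 * (c * x * c⁻¹) * d1⁻¹ := by group
        _ = x := by rw [e1, e2]⟩
    obtain ⟨t, ht, c', -, hc', htc⟩ := YY_split hAp hTY h8
    have htK : t ∈ K := H.hQK ht.1.1
    refine ⟨h * d1⁻¹ * t, H.hKW (K.mul_mem (K.mul_mem hh (K.inv_mem hd1.1)) htK), fun a ha => ?_⟩
    have e1 : n = h * d1⁻¹ * t * c' := by
      rw [hhc]
      have : c = d1⁻¹ * (t * c') := by rw [← htc]; group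
      rw [this]; group
    have e2 := hc' a ha
    calc n * a * n⁻¹ = h * d1⁻¹ * t * (c' * a * c'⁻¹) * (h * d1⁻¹ * t)⁻¹ := by rw [e1]; group
      _ = _ := by rw [e2]
  · -- case a
    have hnT : cj n T ≤ Y := by
      have := cj_mono (a := n) hTY.le
      rwa [cj_of_mem_nrm (hMY hn)] at this
    obtain ⟨y, hy, hyn⟩ := hTY.exists_conj_le (isPGroup_cj hTY.pg) hnT
    obtain ⟨t, ht, c, hcY, hc, htc⟩ := YY_split hAp hTY hy
    set m := c * n with hm
    have hmT : cj m T ≤ T := by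
      have e1 : m = t⁻¹ * (y * n) := by rw [hm, htc]; group
      rw [e1, cj_mul, cj_mul y n]
      rw [← cj_of_mem (T.inv_mem ht), cj_le_cj, cj_of_mem (T.inv_mem ht)]
      exact hyn
    have hmA : m ∈ normalizer (A : Set G) := mul_mem (mem_YY.1 hcY).2.1 hn.2
    have hmN : m ∈ N := N.mul_mem (mem_YY.1 hcY).1 hn.1
    have hB : A ⊔ T ≤ S := sup_le hA hTS
    have hlt : A < A ⊔ T := lt_of_le_of_ne le_sup_left fun h => hTA (by rw [h]; exact le_sup_right)
    have hcard : Nat.card A < Nat.card (A ⊔ T : Subgroup G) := by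
      refine lt_of_le_of_ne (Subgroup.card_le_of_le hlt.le) ?_
      intro h
      exact hlt.ne (Subgroup.eq_of_le_of_card_ge hlt.le h.ge)
    have hok : okA W (A ⊔ T) m := IH _ hB hcard m hmN (by
      rw [cj_sup, cj_of_mem_nrm hmA]
      exact sup_le hA (hmT.trans hTS))
    obtain ⟨h, hh, e1⟩ := okA_anti hok (le_sup_left : A ≤ A ⊔ T)
    refine ⟨h, hh, fun a ha => ?_⟩
    rw [← e1 a ha]
    have ha' : n * a * n⁻¹ ∈ A := (Subgroup.mem_normalizer_iff.1 hn.2 a).1 ha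
    have e2 := hc _ ha'
    calc n * a * n⁻¹ = c * (n * a * n⁻¹) * c⁻¹ := e2.symm
      _ = _ := by rw [hm]; group

theorem q_le [N.Normal] (H : Hyp p N S K W) {B : Subgroup G} (hB : B ≤ S) {n : G} (hnB : cj n B ≤ S)
    (hQB : S ⊓ N ≤ B) : cj n (S ⊓ N) = S ⊓ N := by
  have h1 : S ⊓ N = B ⊓ N := le_antisymm (le_inf hQB inf_le_right) (inf_le_inf hB le_rfl)
  have h2 : cj n (S ⊓ N) ≤ S ⊓ N := by
    conv_lhs => rw [h1]
    rw [cj_inf, cj_of_normal _ N]
    exact inf_le_inf hnB le_rfl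
  exact Subgroup.eq_of_le_of_card_ge h2 (by rw [card_cj])

theorem claimN [N.Normal] (H : Hyp p N S K W) : ∀ (k : ℕ) (A : Subgroup G), A ≤ S → Nat.card S - Nat.card A = k →
    ∀ n ∈ N, cj n A ≤ S → okA W A n := by
  intro k
  induction k using Nat.strong_induction_on with
  | _ k ih =>
  intro A hA hk n hn hnA
  have hSQ : S ≤ normalizer ((S ⊓ N : Subgroup G) : Set G) := by
    intro s hs
    rw [mem_nrm, cj_inf, cj_of_mem hs, cj_of_normal]
  by_cases hQA : S ⊓ N ≤ A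
  · exact okA_nrm (H.hWQ (mem_nrm.2 (q_le H hA hnA hQA)))
  have IH : ∀ B ≤ S, Nat.card A < Nat.card B → ∀ m ∈ N, cj m B ≤ S → okA W B m := by
    intro B hB hc m hm hmB
    have h1 := Subgroup.card_le_of_le hB
    exact ih (Nat.card S - Nat.card B) (by omega) B hB rfl m hm hmB
  set 𝒞 : Set (Subgroup G) := {A' | ∃ m ∈ N, A' = cj m A ∧ A' ≤ S} with h𝒞
  have hcard : ∀ A' ∈ 𝒞, Nat.card A' = Nat.card A := by
    rintro _ ⟨m, -, rfl, -⟩; exact card_cj m A
  have hQA' : ∀ A' ∈ 𝒞, ¬ S ⊓ N ≤ A' := by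
    rintro _ ⟨m, hm, rfl, hA'⟩ h
    apply hQA
    have h1 := q_le H hA' (n := m⁻¹) (by rw [cj_inv_cj]; exact hA) h
    have h2 := cj_mono (a := m⁻¹) h
    rwa [h1, cj_inv_cj] at h2
  have hA0 : A ∈ 𝒞 := ⟨1, N.one_mem, (cj_one A).symm, hA⟩
  obtain ⟨As, hAs, hmax⟩ := Set.exists_max_image 𝒞 (fun A' => Nat.card (S ⊓ N ⊓ normalizer (A' : Set G) : Subgroup G)) (Set.toFinite _) ⟨A, hA0⟩
  have hAs' := hAs
  obtain ⟨m, hm, hmAs, hAsS⟩ := hAs'
  -- the Sylow property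
  have hT : SylIn p (S ⊓ N ⊓ normalizer (As : Set G)) (N ⊓ normalizer (As : Set G)) := by
    set T0 := S ⊓ N ⊓ normalizer (As : Set G) with hT0
    set M0 := N ⊓ normalizer (As : Set G) with hM0
    have hAM : As ≤ normalizer (M0 : Set G) := by
      intro a ha
      rw [mem_nrm, hM0, cj_inf, cj_of_normal, cj_normalizer, cj_of_mem ha]
    have hp1 : IsPGroup p (As ⊔ T0 : Subgroup G) := H.hS.pg.to_le (sup_le hAsS (inf_le_left.trans inf_le_left))
    have hT0M : T0 ≤ M0 := inf_le_inf inf_le_right le_rfl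
    obtain ⟨R1, hR1, hR1'⟩ := SylIn.exists_ge hp1 (H := M0 ⊔ As) (sup_le le_sup_right (hT0M.trans le_sup_left))
    have hR0 : SylIn p (R1 ⊓ M0) M0 := hR1'.inf_normal le_sup_left (sup_le le_normalizer hAM)
    have hR1SN : R1 ≤ S ⊔ N := hR1'.le.trans (sup_le (inf_le_left.trans le_sup_right) (hAsS.trans le_sup_left))
    have hSsyl : SylIn p S (S ⊔ N) := H.hS.mono le_sup_left le_top
    obtain ⟨g, hg, hgR⟩ := hSsyl.exists_conj_le hR1'.pg hR1SN
    obtain ⟨s, hs, n2, hn2, hgs⟩ := CfsgLib.Comp2.exists_mul_of_mem_sup (H := S) (K := N) (by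
      rw [normalizer_eq_top]; exact le_top) hg
    have hR2 : cj n2 R1 ≤ S := by
      rw [hgs, cj_mul] at hgR
      have := cj_le_iff.1 hgR
      rwa [cj_of_mem (S.inv_mem hs)] at this
    have hA2 : cj n2 As ∈ 𝒞 := ⟨n2 * m, N.mul_mem hn2 hm, by rw [hmAs, cj_mul], (cj_mono (le_sup_left.trans hR1)).trans hR2⟩
    have h1 := hmax _ hA2
    have h2 : cj n2 (R1 ⊓ M0) ≤ S ⊓ N ⊓ normalizer ((cj n2 As : Subgroup G) : Set G) := by
      refine le_inf (le_inf ((cj_mono inf_le_left).trans hR2) ?_) ?_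
      · have : R1 ⊓ M0 ≤ N := inf_le_right.trans inf_le_left
        have := cj_mono (a := n2) this
        rwa [cj_of_normal _ N] at this
      · rw [← cj_normalizer]
        exact cj_mono (inf_le_right.trans inf_le_right)
    have h3 := Subgroup.card_le_of_le h2
    rw [card_cj] at h3
    exact hR0.of_card (H.hS.pg.to_le (inf_le_left.trans inf_le_left)) hT0M (h3.trans h1)
  -- lifting
  have lift : ∀ A' ∈ 𝒞, ∃ t ∈ N, cj t A' = As ∧ okA W A' t := by
    intro A' hA'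
    have hA'' := hA'
    obtain ⟨m', hm', hmA', hA'S⟩ := hA''
    set u := m * m'⁻¹ with hu
    have huN : u ∈ N := N.mul_mem hm (N.inv_mem hm')
    have huA : cj u A' = As := by rw [hu, hmA', cj_mul, cj_inv_cj, hmAs]
    have h1 : cj u (S ⊓ N ⊓ normalizer (A' : Set G)) ≤ N ⊓ normalizer (As : Set G) := by
      rw [cj_inf, cj_inf, cj_of_normal u N, cj_normalizer, huA]
      exact inf_le_inf inf_le_right le_rfl
    obtain ⟨r, hr, hr'⟩ := hT.exists_conj_le (isPGroup_cj (H.hS.pg.to_le (inf_le_left.trans inf_le_left))) h1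
    have htA : cj (r * u) A' = As := by rw [cj_mul, huA, cj_of_mem_nrm hr.2]
    have htN : r * u ∈ N := N.mul_mem hr.1 huN
    refine ⟨r * u, htN, htA, ?_⟩
    have hB : A' ⊔ (S ⊓ N ⊓ normalizer (A' : Set G)) ≤ S := sup_le hA'S (inf_le_left.trans inf_le_left)
    refine okA_anti (IH _ hB ?_ _ htN ?_) le_sup_left
    · rw [← hcard A' hA']
      have hlt1 : A' < A' ⊔ (S ⊓ N) := lt_of_le_of_ne le_sup_left fun h => hQA' A' hA' (by rw [h]; exact le_sup_right)
      have hlt2 := lt_nrm_inf (H.hS.pg.to_le (sup_le hA'S inf_le_left)) hlt1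
      obtain ⟨x, hx, hxA⟩ := SetLike.exists_of_lt hlt2
      obtain ⟨a, ha, q, hq, hxa⟩ := CfsgLib.Comp2.exists_mul_of_mem_sup (hA'S.trans hSQ) hx.1
      have hq' : q = a⁻¹ * x := by rw [hxa]; group
      have hlt3 : A' < A' ⊔ (S ⊓ N ⊓ normalizer (A' : Set G)) := by
        refine lt_of_le_of_ne le_sup_left fun h => ?_
        apply hxA
        rw [hxa]
        refine A'.mul_mem ha ?_
        rw [h]
        refine (le_sup_right : S ⊓ N ⊓ normalizer (A' : Set G) ≤ _) ⟨hq, ?_⟩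
        rw [hq']
        exact (normalizer (A' : Set G)).mul_mem ((normalizer (A' : Set G)).inv_mem (le_normalizer ha)) hx.2
      refine lt_of_le_of_ne (Subgroup.card_le_of_le hlt3.le) ?_
      intro h
      exact hlt3.ne (Subgroup.eq_of_le_of_card_ge hlt3.le h.ge)
    · rw [cj_sup, htA, cj_mul]
      exact sup_le hAsS (hr'.trans (inf_le_left.trans inf_le_left))
  obtain ⟨t1, ht1, e1, ok1⟩ := lift A hA0
  obtain ⟨t2, ht2, e2, ok2⟩ := lift (cj n A) ⟨n, hn, rfl, hnA⟩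
  have hs1 : cj (t2 * n * t1⁻¹) As = As := by
    rw [cj_mul, ← e1, cj_inv_cj, cj_mul, e2, e1]
  have ok3 : okA W As (t2 * n * t1⁻¹) := by
    refine step3 H hAsS hT ?_ ⟨N.mul_mem (N.mul_mem ht2 hn) (N.inv_mem ht1), mem_nrm.2 hs1⟩
    intro B hB hc m hm hmB
    rw [hcard As hAs] at hc
    exact IH B hB hc m hm hmB
  have ok4 := okA_inv ok2
  rw [e2] at ok4
  have ok5 : okA W A (t2 * n * t1⁻¹ * t1) := okA_mul ok1 (by rw [e1]; exact ok3)
  have ok6 : okA W A (t2⁻¹ * (t2 * n * t1⁻¹ * t1)) := okA_mul ok5 (by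
    rw [cj_mul, e1, hs1]; exact ok4)
  have e : t2⁻¹ * (t2 * n * t1⁻¹ * t1) = n := by group
  rwa [e] at ok6

end main

section final
variable [Finite G] {p : ℕ} [hp : Fact p.Prime] {N S V W : Subgroup G}

theorem ctlF [N.Normal] (hV : V ≤ S ⊓ N)
    (hctrl : ∀ A : Subgroup G, A ≤ S ⊓ N → ∀ n ∈ N, cj n A ≤ S ⊓ N →
      ∃ h ∈ N ⊓ normalizer (V : Set G), ∃ c ∈ N ⊓ centralizer (A : Set G), n = h * c)
    (𝒮 : Set (Subgroup G)) (hf : 𝒮.Finite) (h𝒮 : ∀ V' ∈ 𝒮, ∃ x ∈ normalizer ((S ⊓ N : Subgroup G) : Set G), V' = cj x V) :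
    ∀ D ≤ S ⊓ N, ∀ n ∈ N, cj n D ≤ S ⊓ N → ∃ h ∈ N, (∀ V' ∈ 𝒮, h ∈ normalizer (V' : Set G)) ∧
      ∃ c ∈ N, (∀ d ∈ D, c * d * c⁻¹ = d) ∧ n = h * c := by
  induction 𝒮, hf using Set.Finite.induction_on with
  | empty =>
    intro D hD n hn hnD
    exact ⟨n, hn, fun _ h => absurd h (Set.notMem_empty _), 1, N.one_mem, fun d _ => by group, by group⟩
  | @insert V' 𝒮 _ _ ih =>
    intro D hD n hn hnD
    obtain ⟨h1, hh1, hV1, c1, hc1, hc1', e1⟩ := ih (fun V' h => h𝒮 V' (Set.mem_insert_of_mem _ h)) D hD n hn hnD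
    obtain ⟨x, hx, hxV⟩ := h𝒮 V' (Set.mem_insert _ _)
    have hxQ : cj x (S ⊓ N) = S ⊓ N := mem_nrm.1 hx
    have hSS : ∀ V'' ∈ 𝒮, V'' ≤ S ⊓ N := by
      intro V'' h
      obtain ⟨y, hy, rfl⟩ := h𝒮 V'' (Set.mem_insert_of_mem _ h)
      have := cj_mono (a := y) hV
      rwa [mem_nrm.1 hy] at this
    set D' := D ⊔ sSup 𝒮 with hD'
    have hD'Q : D' ≤ S ⊓ N := sup_le hD (sSup_le hSS)
    have hcD : cj h1 D = cj n D := by
      rw [e1, cj_mul, cj_of_mem_centralizer (mem_centralizer_iff'.2 hc1')]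
    have hsup : cj h1 (sSup 𝒮) ≤ S ⊓ N := by
      rw [cj_le_iff]
      refine sSup_le fun V'' h => ?_
      rw [le_cj_iff, inv_inv, cj_of_mem_nrm (hV1 V'' h)]
      exact hSS V'' h
    have h5 : cj h1 D' ≤ S ⊓ N := by
      rw [hD', cj_sup, hcD]
      exact sup_le hnD hsup
    have hxQ' : cj x⁻¹ (S ⊓ N) = S ⊓ N := mem_nrm.1 (inv_mem hx)
    obtain ⟨h', hh', c', hc', e2⟩ := hctrl (cj x⁻¹ D') (by have := cj_mono (a := x⁻¹) hD'Q; rwa [hxQ'] at this) (x⁻¹ * h1 * x)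
      (by
        have := Subgroup.Normal.conj_mem (inferInstance : N.Normal) h1 hh1 x⁻¹
        simpa using this) (by
        rw [cj_mul, cj_mul, cj_cj_inv]
        have := cj_mono (a := x⁻¹) h5
        rwa [hxQ'] at this)
    have hc2 : x * c' * x⁻¹ ∈ centralizer (D' : Set G) := by
      have h6 : x * c' * x⁻¹ ∈ cj x (centralizer ((cj x⁻¹ D' : Subgroup G) : Set G)) := conj_mem_cj hc'.2
      rwa [cj_centralizer, cj_cj_inv] at h6
    have hc2' := mem_centralizer_iff'.1 hc2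
    have hc2N : x * c' * x⁻¹ ∈ N := Subgroup.Normal.conj_mem inferInstance _ hc'.1 x
    have hh2N : x * h' * x⁻¹ ∈ N := Subgroup.Normal.conj_mem inferInstance _ hh'.1 x
    have e3 : h1 = (x * h' * x⁻¹) * (x * c' * x⁻¹) := by
      have : h1 = x * (x⁻¹ * h1 * x) * x⁻¹ := by group
      rw [this, e2]; group
    refine ⟨x * h' * x⁻¹, hh2N, ?_, x * c' * x⁻¹ * c1, N.mul_mem hc2N hc1, ?_, ?_⟩
    · intro V'' hV''
      rcases hV'' with rfl | hV''
      · have h6 : x * h' * x⁻¹ ∈ cj x (normalizer (V : Set G)) := conj_mem_cj hh'.2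
        rwa [cj_normalizer, ← hxV] at h6
      · have h6 : x * h' * x⁻¹ = h1 * (x * c' * x⁻¹)⁻¹ := by rw [e3]; group
        rw [h6]
        refine mul_mem (hV1 V'' hV'') (inv_mem ?_)
        rw [mem_nrm]
        apply cj_of_mem_centralizer
        rw [mem_centralizer_iff']
        intro v hv
        exact hc2' v ((le_sSup hV'').trans le_sup_right hv)
    · intro d hd
      have e4 := hc1' d hd
      have e5 := hc2' d ((le_sup_left : D ≤ D') hd)
      calc x * c' * x⁻¹ * c1 * d * (x * c' * x⁻¹ * c1)⁻¹ = x * c' * x⁻¹ * (c1 * d * c1⁻¹) * (x * c' * x⁻¹)⁻¹ := by group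
        _ = d := by rw [e4, e5]
    · rw [e1, e3]; group

theorem strong [N.Normal] (hS : SylIn p S ⊤) (hV : V ≤ S ⊓ N) (hVn : ∀ x ∈ S ⊓ N, cj x V = V)
    (hctrl : ∀ A : Subgroup G, A ≤ S ⊓ N → ∀ n ∈ N, cj n A ≤ S ⊓ N →
      ∃ h ∈ N ⊓ normalizer (V : Set G), ∃ c ∈ N ⊓ centralizer (A : Set G), n = h * c)
    (hW : W = Subgroup.closure (⋃ x ∈ normalizer ((S ⊓ N : Subgroup G) : Set G), ((cj x V : Subgroup G) : Set G))) :
    ∀ A : Subgroup G, A ≤ S → ∀ g : G, cj g A ≤ S →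
        ∃ h ∈ normalizer (W : Set G), ∃ c ∈ centralizer (A : Set G), g = h * c := by
  -- the members below W
  have hVW : ∀ x ∈ normalizer ((S ⊓ N : Subgroup G) : Set G), cj x V ≤ W := by
    intro x hx v hv
    rw [hW]
    exact subset_closure (Set.mem_biUnion hx hv)
  have nrmW : ∀ h : G, (∀ x ∈ normalizer ((S ⊓ N : Subgroup G) : Set G), cj h (cj x V) ≤ W) → h ∈ normalizer (W : Set G) := by
    intro h hh
    rw [mem_nrm]
    have h1 : cj h W ≤ W := by
      rw [cj_le_iff]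
      conv_lhs => rw [hW]
      rw [Subgroup.closure_le]
      intro v hv
      obtain ⟨x, hx, hv⟩ := Set.mem_iUnion₂.1 hv
      have := hh x hx
      rw [cj_le_iff] at this
      exact this hv
    exact Subgroup.eq_of_le_of_card_ge h1 (by rw [card_cj])
  have hWQ : normalizer ((S ⊓ N : Subgroup G) : Set G) ≤ normalizer (W : Set G) := by
    intro h hh
    apply nrmW
    intro x hx
    rw [← cj_mul]
    exact hVW _ (mul_mem hh hx)
  set K : Subgroup G := N ⊓ ⨅ x : normalizer ((S ⊓ N : Subgroup G) : Set G), normalizer ((cj (x : G) V : Subgroup G) : Set G) with hK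
  have memK : ∀ h : G, h ∈ K ↔ h ∈ N ∧ ∀ x ∈ normalizer ((S ⊓ N : Subgroup G) : Set G), cj h (cj x V) = cj x V := by
    intro h
    rw [hK, mem_inf, mem_iInf]
    refine and_congr_right fun _ => ?_
    constructor
    · intro h1 x hx
      exact mem_nrm.1 (h1 ⟨x, hx⟩)
    · rintro h1 ⟨x, hx⟩
      exact mem_nrm.2 (h1 x hx)
  have hSQ : S ≤ normalizer ((S ⊓ N : Subgroup G) : Set G) := by
    intro s hs
    rw [mem_nrm, cj_inf, cj_of_mem hs, cj_of_normal]
  have hyp : Hyp p N S K W := by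
    refine ⟨hS, hWQ, inf_le_left, ?_, ?_, ?_, ?_⟩
    · intro h hh
      apply nrmW
      intro x hx
      rw [((memK h).1 hh).2 x hx]
      exact hVW x hx
    · intro q hq
      rw [memK]
      refine ⟨hq.2, fun x hx => ?_⟩
      rw [← cj_mul]
      have e : q * x = x * (x⁻¹ * q * x) := by group
      rw [e, cj_mul, hVn]
      have h1 : x⁻¹ * q * (x⁻¹)⁻¹ ∈ cj x⁻¹ (S ⊓ N) := conj_mem_cj hq
      rw [mem_nrm.1 (inv_mem hx), inv_inv] at h1
      exact h1
    · intro s hs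
      have hs' := hSQ hs
      rw [mem_nrm]
      have h1 : cj s K ≤ K := by
        rw [cj_le']
        intro k hk
        rw [memK] at hk ⊢
        refine ⟨Subgroup.Normal.conj_mem inferInstance _ hk.1 s, fun x hx => ?_⟩
        rw [cj_mul, cj_mul, ← cj_mul s⁻¹, hk.2 _ (mul_mem (inv_mem hs') hx), ← cj_mul, mul_inv_cancel_left]
      exact Subgroup.eq_of_le_of_card_ge h1 (by rw [card_cj])
    · intro D hD n hn hnD
      obtain ⟨h, hh, hh', c, hc, hc', e⟩ := ctlF hV hctrl {V' | ∃ x ∈ normalizer ((S ⊓ N : Subgroup G) : Set G), V' = cj x V} (Set.toFinite _)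
        (fun _ h => h) D hD n hn hnD
      refine ⟨h, (memK h).2 ⟨hh, fun x hx => mem_nrm.1 (hh' _ ⟨x, hx, rfl⟩)⟩, c, hc, hc', e⟩
  intro A hA g hg
  -- reduction to `N`
  have hQ : SylIn p (S ⊓ N) N := hS.inf_normal le_top (by rw [normalizer_eq_top])
  obtain ⟨y0, hy0, hy0'⟩ : ∃ y ∈ N, cj y (cj g (S ⊓ N)) = S ⊓ N := by
    have h1 : SylIn p (cj g (S ⊓ N)) N := by have := hQ.cj g; rwa [cj_of_normal _ N] at this
    exact hQ.exists_conj h1
  -- x = y0 g normalises Q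
  have hx : y0 * g ∈ normalizer ((S ⊓ N : Subgroup G) : Set G) := mem_nrm.2 (by rw [cj_mul]; exact hy0')
  set x := y0 * g with hxd
  have hgx : g = y0⁻¹ * x := by rw [hxd]; group
  -- B = x A x⁻¹ lies in S N and normalises Q
  set B := cj x A with hB
  have hBQ : B ≤ normalizer ((S ⊓ N : Subgroup G) : Set G) := by
    have := cj_mono (a := x) (hA.trans hSQ)
    rwa [cj_normalizer, mem_nrm.1 hx] at this
  have hyB : cj y0⁻¹ B ≤ S := by rw [hB, ← cj_mul, ← hgx]; exact hg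
  have hBSN : B ≤ S ⊔ N := by
    intro b hb
    have h1 : y0⁻¹ * b * (y0⁻¹)⁻¹ ∈ S := hyB (conj_mem_cj hb)
    have e : b = y0 * (y0⁻¹ * b * (y0⁻¹)⁻¹) * y0⁻¹ := by group
    rw [e]
    exact mul_mem (mul_mem (le_sup_right (a := S) hy0) (le_sup_left (b := N) h1)) (inv_mem (le_sup_right (a := S) hy0))
  have hSM : SylIn p S ((S ⊔ N) ⊓ normalizer ((S ⊓ N : Subgroup G) : Set G)) := hS.mono (le_inf le_sup_left hSQ) le_top
  obtain ⟨a, ha, haB⟩ := hSM.exists_conj_le (isPGroup_cj (hS.pg.to_le hA)) (le_inf hBSN hBQ)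
  obtain ⟨s, hs, y, hy, hay⟩ := CfsgLib.Comp2.exists_mul_of_mem_sup (H := S) (K := N) (by
      rw [normalizer_eq_top]; exact le_top) ha.1
  have hyB2 : cj y B ≤ S := by
    rw [hay, cj_mul] at haB
    have := cj_le_iff.1 haB
    rwa [cj_of_mem (S.inv_mem hs)] at this
  have hyQ : y ∈ normalizer ((S ⊓ N : Subgroup G) : Set G) := by
    have : y = s⁻¹ * a := by rw [hay]; group
    rw [this]
    exact mul_mem (inv_mem (hSQ hs)) ha.2
  -- g = (y0⁻¹ y⁻¹) (y x)
  have hA' : cj (y * x) A ≤ S := by rw [cj_mul]; exact hyB2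
  have hn : y0⁻¹ * y⁻¹ ∈ N := N.mul_mem (N.inv_mem hy0) (N.inv_mem hy)
  have ok1 : okA W (cj (y * x) A) (y0⁻¹ * y⁻¹) := by
    refine claimN hyp _ _ hA' rfl _ hn ?_
    rw [← cj_mul]
    have e : y0⁻¹ * y⁻¹ * (y * x) = g := by rw [hgx]; group
    rw [e]; exact hg
  have ok2 : okA W A (y * x) := okA_nrm (hWQ (mul_mem hyQ hx))
  have ok3 := okA_mul ok2 ok1
  have e : y0⁻¹ * y⁻¹ * (y * x) = g := by rw [hgx]; group
  rw [e] at ok3
  obtain ⟨h, hh, h1⟩ := ok3
  refine ⟨h, hh, h⁻¹ * g, ?_, by group⟩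
  exact agree_iff.1 fun d hd => (h1 d hd).symm

end final

end CfsgLib.H14SF
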