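import Cfsg.Agent.LibH22Cv1

set_option autoImplicit false

/-! Semantics of the tables: the pairing between the Chevalley Lie algebra and forms. -/

namespace Cfsg.Agent.H22.Cv

open CfsgLib.Chev Cfsg.Lie Matrix

section Val
variable {F : Type*} [Field F] (t : F) (y : ℕ → F)

def val (L : List (ℕ × Mon)) : F := (L.map fun q => mev t 0 q.2 * y q.1).sum

theorem val_nil : val t y [] = 0 := by simp [val]

theorem val_cons (q : ℕ × Mon) (L : List (ℕ × Mon)) : val t y (q :: L) = mev t 0 q.2 * y q.1 + val t y L := by simp [val]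

theorem val_append (L L' : List (ℕ × Mon)) : val t y (L ++ L') = val t y L + val t y L' := by simp [val]

theorem val_flatMap {α : Type*} (f : α → List (ℕ × Mon)) (L : List α) :
    val t y (L.flatMap f) = (L.map fun a => val t y (f a)).sum := by
  induction L with
  | nil => simp [val_nil]
  | cons a L ih => rw [List.flatMap_cons, val_append, ih, List.map_cons, List.sum_cons]

theorem val_filter (q : ℕ × Mon) (L : List (ℕ × Mon)) :
    val t y L = ((((L.filter (sameK q)).map (fun q => q.2.1)).sum : ℤ) : F) *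
      ((t ^ q.2.2.1 * 0 ^ q.2.2.2) * y q.1) + val t y (L.filter (fun q' => !sameK q q')) := by
  induction L with
  | nil => simp [val_nil]
  | cons a L ih =>
    rw [val_cons, ih]
    by_cases h : sameK q a = true
    · rw [List.filter_cons_of_pos h, List.filter_cons_of_neg (by simp [h])]
      simp only [sameK, Bool.and_eq_true, beq_iff_eq] at h
      obtain ⟨h1, h2, h3⟩ := h
      rw [List.map_cons, List.sum_cons, Int.cast_add, add_mul, ← h1, add_assoc]
      congr 1
      rw [mev, ← h2, ← h3]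
      ring
    · rw [List.filter_cons_of_neg h, List.filter_cons_of_pos (by simp at h; simp [h]), val_cons]
      ring

theorem isZero_val : ∀ (f : ℕ) (L : List (ℕ × Mon)), isZero f L = true → val t y L = 0 := by
  intro f
  induction f with
  | zero =>
    intro L h
    rw [isZero, List.isEmpty_iff] at h
    rw [h, val_nil]
  | succ f ih =>
    intro L h
    cases L with
    | nil => rw [val_nil]
    | cons q L =>
      rw [isZero, Bool.and_eq_true, beq_iff_eq] at h
      rw [val_cons, val_filter t y q L, ih _ h.2, add_zero]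
      have e : mev t 0 q.2 * y q.1 = (q.2.1 : F) * ((t ^ q.2.2.1 * 0 ^ q.2.2.2) * y q.1) := by
        unfold mev; ring
      rw [e, ← add_mul, ← Int.cast_add]
      have : q.2.1 + ((L.filter (sameK q)).map (fun q => q.2.1)).sum = 0 := by rw [add_comm]; exact h.1
      rw [this]; simp

theorem val_negL (L : List (ℕ × Mon)) : val t y (negL L) = - val t y L := by
  induction L with
  | nil => simp [negL, val_nil]
  | cons a L ih =>
    have e : negL (a :: L) = (a.1, (-a.2.1, a.2.2)) :: negL L := rfl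
    rw [e, val_cons, val_cons, ih, neg_add]
    congr 1
    simp only [mev]; push_cast; ring

theorem eqB_val (L1 L2 : List (ℕ × Mon)) (h : eqB L1 L2 = true) : val t y L1 = val t y L2 := by
  have := isZero_val t y _ _ h
  rw [val_append, val_negL] at this
  exact sub_eq_zero.1 (by rw [sub_eq_add_neg]; exact this)

end Val

section Pr
variable {F : Type*} [Field F] (D : ChevalleyDatum) (n : ℕ)

/-- numbering of the basis -/
def ix : D.Idx → ℕ
  | Sum.inl i => n + i
  | Sum.inr s => s

/-- the pairing of a vector with a function on the basis -/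
def pr (p : ℕ → F) (v : D.Idx → F) : F := ∑ i : D.Idx, v i * p (ix D n i)

theorem pr_add (p : ℕ → F) (v w : D.Idx → F) : pr D n p (v + w) = pr D n p v + pr D n p w := by
  unfold pr
  rw [← Finset.sum_add_distrib]
  exact Finset.sum_congr rfl fun i _ => by rw [Pi.add_apply, add_mul]

theorem pr_smul (p : ℕ → F) (c : F) (v : D.Idx → F) : pr D n p (c • v) = c * pr D n p v := by
  unfold pr
  rw [Finset.mul_sum]
  exact Finset.sum_congr rfl fun i _ => by rw [Pi.smul_apply, smul_eq_mul, mul_assoc]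

theorem pr_zero (p : ℕ → F) : pr D n p 0 = 0 := by
  unfold pr
  exact Finset.sum_eq_zero fun i _ => by rw [Pi.zero_apply, zero_mul]

/-- the pairing as a linear map -/
def prL (p : ℕ → F) : (D.Idx → F) →ₗ[F] F where
  toFun := pr D n p
  map_add' := pr_add D n p
  map_smul' := by intro c v; exact pr_smul D n p c v

theorem pr_eV (hn : D.nroots = n) (p : ℕ → F) {s : ℕ} (hs : s < n) : pr D n p (eV D F s) = p s := by
  have hs' : s < D.nroots := by rw [hn]; exact hs
  unfold pr eV
  rw [dif_pos hs', Finset.sum_eq_single (Sum.inr ⟨s, hs'⟩)]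
  · rw [Pi.single_eq_same, one_mul]; rfl
  · intro i _ hi
    rw [Pi.single_eq_of_ne hi, zero_mul]
  · intro h; exact absurd (Finset.mem_univ _) h

theorem pr_hV (l : ℕ) (hl : D.rank = l) (p : ℕ → F) {s : ℕ} (hs : s < l) : pr D n p (hV D F s) = p (n + s) := by
  have hs' : s < D.rank := by rw [hl]; exact hs
  unfold pr hV
  rw [dif_pos hs', Finset.sum_eq_single (Sum.inl ⟨s, hs'⟩)]
  · rw [Pi.single_eq_same, one_mul]; rfl
  · intro i _ hi
    rw [Pi.single_eq_of_ne hi, zero_mul]
  · intro h; exact absurd (Finset.mem_univ _) h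

theorem pr_bV (l : ℕ) (hn : D.nroots = n) (hl : D.rank = l) (p : ℕ → F) {k : ℕ} (hk : k < n + l) :
    pr D n p (bV D F n k) = p k := by
  unfold bV
  split_ifs with h
  · exact pr_eV D n hn p h
  · rw [pr_hV D n l hl p (by omega)]
    congr 1; omega

theorem pr_vec (l : ℕ) (hn : D.nroots = n) (hl : D.rank = l) (p : ℕ → F) (t : F) (L : List (ℕ × Mon))
    (hL : ∀ q ∈ L, q.1 < n + l) : pr D n p (vec D t 0 n L) = (L.map fun q => mev t 0 q.2 * p q.1).sum := by
  induction L with
  | nil => rw [vec_nil, pr_zero]; simp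
  | cons a L ih =>
    rw [vec_cons, pr_add, pr_smul, pr_bV D n l hn hl p (hL a (by simp)), ih (fun q hq => hL q (by simp [hq])), List.map_cons, List.sum_cons]

/-- two matrices agree under all pairings with basis vectors -/
theorem ext_bV (l : ℕ) (hn : D.nroots = n) (hl : D.rank = l) {f f' : (D.Idx → F) →ₗ[F] F}
    (h : ∀ k < n + l, f (bV D F n k) = f' (bV D F n k)) (u : D.Idx → F) : f u = f' u := by
  have e : f = f' := by
    apply LinearMap.pi_ext'
    intro i
    apply LinearMap.ext_ring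
    rcases i with i | s
    · have h1 := h (n + i) (by have := i.2; omega)
      have e : bV D F n (n + i) = Pi.single (Sum.inl i) (1 : F) := by
        unfold bV hV
        rw [if_neg (by omega), dif_pos (by have := i.2; omega)]
        congr 1
        congr 1
        apply Fin.ext
        show n + i.1 - n = i.1
        omega
      rw [e] at h1
      exact h1
    · have h1 := h s (by have := s.2; omega)
      have e : bV D F n s = Pi.single (Sum.inr s) (1 : F) := by
        unfold bV eV
        rw [if_pos (by have := s.2; omega), dif_pos s.2]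
      rw [e] at h1
      exact h1
  rw [e]

end Pr

section Frame

variable {F V : Type*} [Field F] [AddCommGroup V] [Module F V]

/-- `e 0, ..., e (d-1)` is a frame for `Q` as in the model -/
structure Fr (M : Md) (Q : QuadraticForm F V) (e : ℕ → V) : Prop where
  pol : ∀ a < M.d, ∀ b < M.d, QuadraticMap.polar Q (e a) (e b) = ((M.bb a b : ℤ) : F)
  q : ∀ a < M.d, Q (e a) = ((M.qq a : ℤ) : F)

variable {M : Md} {Q : QuadraticForm F V} {e : ℕ → V}

theorem rchk {n l : ℕ} (h : M.chkR n l = true) {r : ℕ} (hr : r < n) : M.A r < M.d ∧ M.B r < M.d ∧ M.A r ≠ M.B r ∧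
    M.A r + M.B r ≠ M.d - 1 ∧ M.A r + M.A r ≠ M.d - 1 ∧ (M.S r = 1 ∨ M.S r = -1) := by
  unfold Md.chkR at h
  rw [allB_iff] at h
  have := h r hr
  simp only [Bool.and_eq_true, decide_eq_true_eq, Bool.not_eq_true', beq_eq_false_iff_ne, ne_eq] at this
  obtain ⟨⟨⟨⟨⟨h1, h2⟩, h3⟩, h4⟩, h5⟩, h6⟩ := this
  exact ⟨h1, h2, h3, h4, h5, h6⟩

/-- root elements of the orthogonal group -/
noncomputable def xe (M : Md) (Q : QuadraticForm F V) (e : ℕ → V) (r : ℕ) (t : F) : EG Q :=
  CfsgLib.AutO27.E Q (e (M.A r)) ((-(t * ((M.S r : ℤ) : F))) • e (M.B r))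

theorem xe_apply {n l : ℕ} (hc : M.chkR n l = true) (hf : Fr M Q e) {r : ℕ} (hr : r < n) (t : F) {c : ℕ} (hcd : c < M.d) :
    (xe M Q e r t).1.1 (e c) = ((M.GV r c).map fun x => mev t 0 x.2 • e x.1).sum := by
  obtain ⟨h1, h2, h3, h4, h5, h6⟩ := rchk hc hr
  have hQ : Q (e (M.A r)) = 0 := by
    rw [hf.q _ h1]; unfold Md.qq; rw [if_neg h5]; simp
  have hP : QuadraticMap.polar Q (e (M.A r)) ((-(t * ((M.S r : ℤ) : F))) • e (M.B r)) = 0 := by
    rw [QuadraticMap.polar_smul_right, hf.pol _ h1 _ h2]; unfold Md.bb; rw [if_neg h4]; simp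
  have hS : ((M.S r : ℤ) : F) * ((M.S r : ℤ) : F) = 1 := by
    rcases h6 with h | h <;> rw [h] <;> simp
  unfold xe
  rw [CfsgLib.AutO27.E_apply hQ hP, hf.pol _ h1 _ hcd, QuadraticMap.polar_smul_left, hf.pol _ h2 _ hcd, QuadraticMap.map_smul, hf.q _ h2]
  unfold Md.GV
  simp only [List.map_cons, List.map_nil, List.sum_cons, List.sum_nil, mev, smul_eq_mul]
  push_cast
  simp only [pow_zero, pow_one, mul_one, one_smul, add_zero]
  have e1 : (-(t * ((M.S r : ℤ) : F))) * (-(t * ((M.S r : ℤ) : F))) * ((M.qq (M.B r) : ℤ) : F) * ((M.bb (M.A r) c : ℤ) : F) =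
      ((M.qq (M.B r) : ℤ) : F) * ((M.bb (M.A r) c : ℤ) : F) * t ^ 2 := by
    linear_combination ((M.qq (M.B r) : ℤ) : F) * ((M.bb (M.A r) c : ℤ) : F) * t ^ 2 * hS
  rw [e1]
  module

/-- symbols -/
def sym (M : Md) (e : ℕ → V) (β : LinearMap.BilinForm F V) (c : F) : ℕ → F := fun s =>
  if s = M.d * M.d then c else β (e (s / M.d)) (e (s % M.d))

theorem sym_ab {M : Md} {β : LinearMap.BilinForm F V} {c : F} {a b : ℕ} (ha : a < M.d) (hb : b < M.d) :
    sym M e β c (M.d * a + b) = β (e a) (e b) := by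
  unfold sym
  have h1 : M.d * a + b ≠ M.d * M.d := by nlinarith
  rw [if_neg h1, Nat.mul_add_div (by omega), Nat.div_eq_of_lt hb, Nat.mul_add_mod, Nat.mod_eq_of_lt hb, add_zero]

theorem sym_c {M : Md} {β : LinearMap.BilinForm F V} {c : F} : sym M e β c (M.d * M.d) = c := by
  unfold sym; rw [if_pos rfl]

theorem form_anti {β : LinearMap.BilinForm F V} {c : F} (hβ : ∀ v, β v v = c * Q v) (v w : V) :
    β v w + β w v = c * QuadraticMap.polar Q v w := by
  have h := hβ (v + w)
  rw [map_add, map_add, LinearMap.add_apply, LinearMap.add_apply, hβ v, hβ w] at h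
  unfold QuadraticMap.polar
  linear_combination h

theorem BT_sound (hf : Fr M Q e) {β : LinearMap.BilinForm F V} {c : F} (hβ : ∀ v, β v v = c * Q v) {a b : ℕ}
    (ha : a < M.d) (hb : b < M.d) : β (e a) (e b) = ((M.BT a b).map fun z => ((z.2 : ℤ) : F) * sym M e β c z.1).sum := by
  unfold Md.BT
  split_ifs with h1 h2 h3 h4
  · simp only [List.map_cons, List.map_nil, List.sum_cons, List.sum_nil, sym_ab ha hb]; simp
  · subst h2
    simp only [List.map_cons, List.map_nil, List.sum_cons, List.sum_nil, sym_c, hβ, hf.q a ha, Md.qq, if_pos h3]; simp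
  · subst h2
    simp only [List.map_nil, List.sum_nil, hβ, hf.q a ha, Md.qq, if_neg h3]; simp
  · have h5 := form_anti hβ (e a) (e b)
    rw [hf.pol a ha b hb, Md.bb, if_pos h4, if_neg h2] at h5
    simp only [List.map_cons, List.map_nil, List.sum_cons, List.sum_nil, sym_c, sym_ab hb ha]
    push_cast at h5 ⊢
    linear_combination h5
  · have h5 := form_anti hβ (e a) (e b)
    rw [hf.pol a ha b hb, Md.bb, if_neg h4] at h5
    simp only [List.map_cons, List.map_nil, List.sum_cons, List.sum_nil, sym_ab hb ha]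
    push_cast at h5 ⊢
    linear_combination h5

/-- value of a basis vector on a form -/
def pv (M : Md) (n : ℕ) (e : ℕ → V) (β : LinearMap.BilinForm F V) (c : F) (k : ℕ) : F :=
  ((M.PL n k).map fun s => ((s.2 : ℤ) : F) * sym M e β c s.1).sum

theorem GV_lt {n l : ℕ} (hc : M.chkR n l = true) {r : ℕ} (hr : r < n) {c : ℕ} (hcd : c < M.d) : ∀ x ∈ M.GV r c, x.1 < M.d := by
  obtain ⟨h1, h2, -⟩ := rchk hc hr
  intro x hx
  unfold Md.GV at hx
  simp only [List.mem_cons, List.not_mem_nil, or_false] at hx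
  rcases hx with h | h | h | h <;> rw [h] <;> assumption

/-- pull back of a form -/
abbrev pb (β : LinearMap.BilinForm F V) (g : V ≃ₗ[F] V) : LinearMap.BilinForm F V := β.comp g.toLinearMap g.toLinearMap

theorem pb_apply (β : LinearMap.BilinForm F V) (g : V ≃ₗ[F] V) (v w : V) : pb β g v w = β (g v) (g w) := rfl

theorem sum_map_mul_left' {α : Type*} (L : List α) (f : α → F) (c : F) : (L.map fun a => c * f a).sum = c * (L.map f).sum := by
  induction L with
  | nil => simp
  | cons a L ih => simp only [List.map_cons, List.sum_cons, ih, mul_add]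

theorem val_mul3 (hf : Fr M Q e) {β : LinearMap.BilinForm F V} {c : F} (hβ : ∀ v, β v v = c * Q v) (t : F) (k : ℤ)
    {x x' : ℕ × Mon} (hx : x.1 < M.d) (hx' : x'.1 < M.d) :
    val t (sym M e β c) (M.mul3 k x x') = (k : F) * (mev t 0 x.2 * mev t 0 x'.2 * β (e x.1) (e x'.1)) := by
  rw [BT_sound hf hβ hx hx']
  unfold Md.mul3 val
  rw [List.map_map, ← sum_map_mul_left', ← sum_map_mul_left']
  congr 1
  apply List.map_congr_left
  intro z _
  simp only [Function.comp, mev]
  push_cast
  rw [pow_add, pow_add]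
  ring

theorem bil_sum (β : LinearMap.BilinForm F V) {α : Type*} (L L' : List α) (f : α → F) (g : α → V) :
    β (L.map fun x => f x • g x).sum (L'.map fun x => f x • g x).sum =
      (L.map fun x => (L'.map fun x' => f x * f x' * β (g x) (g x')).sum).sum := by
  induction L with
  | nil => simp
  | cons a L ih =>
    rw [List.map_cons, List.sum_cons, map_add, LinearMap.add_apply, ih, List.map_cons, List.sum_cons]
    congr 1
    clear ih
    induction L' with
    | nil => simp
    | cons b L' ih' =>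
      rw [List.map_cons, List.sum_cons, map_add, ih', List.map_cons, List.sum_cons]
      congr 1
      simp only [map_smul, LinearMap.smul_apply, smul_eq_mul]
      ring

theorem val_rhs1 {n l : ℕ} (hc : M.chkR n l = true) (hf : Fr M Q e) {β : LinearMap.BilinForm F V} {c : F}
    (hβ : ∀ v, β v v = c * Q v) {r : ℕ} (hr : r < n) (t : F) {s : ℕ × ℤ} (hs : s.1 ≤ M.d * M.d) (hd : 0 < M.d) :
    val t (sym M e β c) (M.rhs1 r s) = ((s.2 : ℤ) : F) * sym M e (pb β (xe M Q e r t).1.1) c s.1 := by
  unfold Md.rhs1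
  split_ifs with h
  · rw [val_cons, val_nil, h, sym_c, sym_c]
    simp [mev]
  · have hs' : s.1 < M.d * M.d := lt_of_le_of_ne hs h
    have ha : s.1 / M.d < M.d := Nat.div_lt_of_lt_mul hs'
    have hb : s.1 % M.d < M.d := Nat.mod_lt _ hd
    have e1 : sym M e (pb β (xe M Q e r t).1.1) c s.1 = β ((xe M Q e r t).1.1 (e (s.1 / M.d))) ((xe M Q e r t).1.1 (e (s.1 % M.d))) := by
      unfold sym; rw [if_neg h]; rfl
    rw [e1, xe_apply hc hf hr t ha, xe_apply hc hf hr t hb, bil_sum, val_flatMap, ← sum_map_mul_left']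
    congr 1
    apply List.map_congr_left
    intro x hx
    rw [val_flatMap, ← sum_map_mul_left']
    congr 1
    apply List.map_congr_left
    intro x' hx'
    exact val_mul3 hf hβ t _ (GV_lt hc hr ha x hx) (GV_lt hc hr hb x' hx')

theorem lchk {n l : ℕ} (h : M.chkL n l = true) {k : ℕ} (hk : k < n + l) : ∀ s ∈ M.PL n k, s.1 ≤ M.d * M.d := by
  unfold Md.chkL at h
  rw [allB_iff] at h
  have := h k hk
  rw [List.all_eq_true] at this
  intro s hs
  exact of_decide_eq_true (this s hs)

theorem val_rhs {T : Acc} (hc : M.chkR T.n T.l = true) (hcl : M.chkL T.n T.l = true) (hf : Fr M Q e) {β : LinearMap.BilinForm F V} {c : F}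
    (hβ : ∀ v, β v v = c * Q v) {r : ℕ} (hr : r < T.n) (t : F) (hd : 0 < M.d) {k : ℕ} (hk : k < T.n + T.l) :
    val t (sym M e β c) (M.rhs T r k) = pv M T.n e (pb β (xe M Q e r t).1.1) c k := by
  unfold Md.rhs pv
  rw [val_flatMap]
  congr 1
  apply List.map_congr_left
  intro s hs
  exact val_rhs1 hc hf hβ hr t (lchk hcl hk s hs) hd

variable {D : ChevalleyDatum} {T : Acc}

theorem val_lhs (hT : Link D T) {β : LinearMap.BilinForm F V} {c : F} {r : ℕ} (hr : r < T.n) (t : F) {k : ℕ} (hk : k < T.n + T.l) :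
    val t (sym M e β c) (M.lhs T r k) = pr D T.n (pv M T.n e β c) (D.x F r t *ᵥ bV D F T.n k) := by
  have h1 := actT_sound t 0 hT hr [(1, 1, 0)] (k, (1, 0, 0)) hk
  have h2 : pev t (0 : F) [(1, 1, 0)] = t := by simp [pev, mev]
  have h3 : mev t (0 : F) ((k, (1, 0, 0)) : ℕ × Mon).2 = 1 := by simp [mev]
  rw [h2, h3, one_smul] at h1
  rw [h1, pr_vec D T.n T.l hT.hn hT.hl _ _ _ (valid_actT hT hr _ _ hk)]
  unfold Md.lhs
  rw [val_flatMap]
  congr 1
  apply List.map_congr_left
  intro q _
  unfold pv val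
  rw [List.map_map, ← sum_map_mul_left']
  congr 1
  apply List.map_congr_left
  intro s _
  simp only [Function.comp, mev]
  push_cast
  ring

/-- the fundamental intertwining relation for root elements -/
theorem key (hT : Link D T) (hc : M.chkR T.n T.l = true) (hcl : M.chkL T.n T.l = true) (hck : M.chk T = true) (hd : 0 < M.d)
    (hf : Fr M Q e) {β : LinearMap.BilinForm F V} {c : F}
    (hβ : ∀ v, β v v = c * Q v) {r : ℕ} (hr : r < T.n) (t : F) (u : D.Idx → F) :
    pr D T.n (pv M T.n e β c) (D.x F r t *ᵥ u) = pr D T.n (pv M T.n e (pb β (xe M Q e r t).1.1) c) u := by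
  have h := ext_bV D T.n T.l hT.hn hT.hl (f := (prL D T.n (pv M T.n e β c)).comp (Matrix.mulVecLin (D.x F r t)))
    (f' := prL D T.n (pv M T.n e (pb β (xe M Q e r t).1.1) c)) (by
      intro k hk
      show pr D T.n (pv M T.n e β c) (D.x F r t *ᵥ bV D F T.n k) = pr D T.n (pv M T.n e (pb β (xe M Q e r t).1.1) c) (bV D F T.n k)
      rw [pr_bV D T.n T.l hT.hn hT.hl _ hk, ← val_lhs hT hr t hk, ← val_rhs hc hcl hf hβ hr t hd hk]
      unfold Md.chk at hck
      rw [allB_iff] at hck
      have := hck r hr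
      rw [allB_iff] at this
      exact eqB_val t _ _ _ (this k hk)) u
  exact h

/-- the relation between an isometry and a matrix -/
def Rel (M : Md) (D : ChevalleyDatum) (n : ℕ) (Q : QuadraticForm F V) (e : ℕ → V) (g : OGrp Q) (h : GL D.Idx F) : Prop :=
  ∀ (β : LinearMap.BilinForm F V) (c : F), (∀ v, β v v = c * Q v) → ∀ u : D.Idx → F,
    pr D n (pv M n e β c) ((h : Matrix D.Idx D.Idx F) *ᵥ u) = pr D n (pv M n e (pb β g.1) c) u

theorem pb_form {β : LinearMap.BilinForm F V} {c : F} (hβ : ∀ v, β v v = c * Q v) (g : OGrp Q) (v : V) : pb β g.1 v v = c * Q v := by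
  rw [pb_apply, hβ, og_Q]

theorem Rel.one {n : ℕ} : Rel M D n Q e 1 1 := by
  intro β c hβ u
  rw [Units.val_one, Matrix.one_mulVec]
  have e1 : pb β (1 : OGrp Q).1 = β := by
    apply LinearMap.ext₂
    intro v w
    rfl
  rw [e1]

theorem Rel.mul {n : ℕ} {g g' : OGrp Q} {h h' : GL D.Idx F} (H : Rel M D n Q e g h) (H' : Rel M D n Q e g' h') :
    Rel M D n Q e (g * g') (h * h') := by
  intro β c hβ u
  rw [Units.val_mul, ← Matrix.mulVec_mulVec, H β c hβ, H' _ c (pb_form hβ g)]
  rfl

theorem Rel.inv {n : ℕ} {g : OGrp Q} {h : GL D.Idx F} (H : Rel M D n Q e g h) : Rel M D n Q e g⁻¹ h⁻¹ := by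
  intro β c hβ u
  have e1 : pb (pb β (g⁻¹ : OGrp Q).1) g.1 = β := by
    apply LinearMap.ext₂
    intro v w
    show β ((g⁻¹ : OGrp Q).1 (g.1 v)) ((g⁻¹ : OGrp Q).1 (g.1 w)) = β v w
    rw [og_inv_apply', og_inv_apply']
  have h1 := H (pb β (g⁻¹ : OGrp Q).1) c (pb_form hβ g⁻¹) (((h⁻¹ : GL D.Idx F) : Matrix D.Idx D.Idx F) *ᵥ u)
  rw [e1, Matrix.mulVec_mulVec, ← Units.val_mul, mul_inv_cancel, Units.val_one, Matrix.one_mulVec] at h1
  exact h1.symm

end Frame

end Cfsg.Agent.H22.Cv
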