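import Cfsg.Agent.LibH22Cv2

set_option autoImplicit false

/-! Nondegeneracy of the pairing, the induced homomorphism. -/

namespace Cfsg.Agent.H22.Cv

open CfsgLib.Chev Cfsg.Lie Matrix

namespace Md

/-- coefficient of the symbol `j` in the `k`th basis vector -/
def co (M : Md) (n j k : ℕ) : ℤ := ((M.PL n k).map fun s => if s.1 = j then s.2 else 0).sum

/-- symbols allowed -/
def okS (M : Md) (j : ℕ) : Bool := j == M.d * M.d || (decide (j / M.d < j % M.d) && decide (j < M.d * M.d))

noncomputable def chkN (M : Md) (n l : ℕ) (L : ℕ → List (ℕ × ℤ)) : Bool :=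
  allB (n + l) fun k => ((L k).all fun z => M.okS z.1) && ((M.PL n k).all fun z => M.okS z.1) &&
    allB (n + l) fun i => decide (((L k).map fun z => z.2 * M.co n z.1 i).sum = if k = i then 1 else 0)

end Md

def lD4 (k : ℕ) : List (ℕ × ℤ) :=
  if k < 24 then (mD4.PL 24 k) else [[(7, 1)], [(7, 1), (14, 1)], [(21, 1), (7, 1), (14, 1), (64, 1)], [(64, -1)]].getD (k - 24) []

def lB2 (k : ℕ) : List (ℕ × ℤ) :=
  if k < 8 then (mB2.PL 8 k) else [[(25, -1)], [(4, 1)]].getD (k - 8) []

theorem chkN_mD4 : mD4.chkN 24 4 lD4 = true := by decide +kernel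
theorem chkN_mB2 : mB2.chkN 8 2 lB2 = true := by decide +kernel

section ND

variable {F V : Type*} [Field F] [AddCommGroup V] [Module F V] {M : Md} {Q : QuadraticForm F V} {e : ℕ → V}

/-- coordinate functionals and a form with diagonal `Q` -/
structure Cf (M : Md) (Q : QuadraticForm F V) (e : ℕ → V) (x : ℕ → Module.Dual F V) (β₀ : LinearMap.BilinForm F V) : Prop where
  xe : ∀ a < M.d, ∀ b < M.d, x a (e b) = if a = b then 1 else 0
  b0 : ∀ v, β₀ v v = Q v
  b1 : ∀ a < M.d, ∀ b < M.d, a < b → β₀ (e a) (e b) = 0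
  sp : ∀ v : V, v = ∑ a ∈ Finset.range M.d, x a v • e a

/-- the alternating form `x ∧ y` -/
def wdg (x y : Module.Dual F V) : LinearMap.BilinForm F V :=
  LinearMap.mk₂ F (fun v w => x v * y w - y v * x w)
    (by intro a b c; simp only [map_add]; ring) (by intro c a b; simp only [map_smul, smul_eq_mul]; ring)
    (by intro a b c; simp only [map_add]; ring) (by intro c a b; simp only [map_smul, smul_eq_mul]; ring)

theorem wdg_apply (x y : Module.Dual F V) (v w : V) : wdg x y v w = x v * y w - y v * x w := rfl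

theorem wdg_self (x y : Module.Dual F V) (v : V) : wdg x y v v = 0 * Q v := by rw [wdg_apply]; ring

variable {x : ℕ → Module.Dual F V} {β₀ : LinearMap.BilinForm F V}

/-- for each allowed symbol there is a form with this symbol only -/
theorem exists_form (hx : Cf M Q e x β₀) {j : ℕ} (hj : M.okS j = true) : ∃ (β : LinearMap.BilinForm F V) (c : F),
    (∀ v, β v v = c * Q v) ∧ ∀ s, M.okS s = true → sym M e β c s = if s = j then 1 else 0 := by
  unfold Md.okS at hj
  rw [Bool.or_eq_true, beq_iff_eq, Bool.and_eq_true, decide_eq_true_eq, decide_eq_true_eq] at hj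
  rcases hj with hj | ⟨hj1, hj2⟩
  · refine ⟨β₀, 1, fun v => by rw [hx.b0, one_mul], ?_⟩
    intro s hs
    unfold Md.okS at hs
    rw [Bool.or_eq_true, beq_iff_eq, Bool.and_eq_true, decide_eq_true_eq, decide_eq_true_eq] at hs
    unfold sym
    split_ifs with h1 h2 h2
    · rfl
    · exact absurd (h1.trans hj.symm) h2
    · exact absurd (h2.trans hj) h1
    · rcases hs with hs | ⟨hs1, hs2⟩
      · exact absurd hs h1
      · have hd : 0 < M.d := by
          rcases Nat.eq_zero_or_pos M.d with h | h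
          · rw [h] at hs2; omega
          · exact h
        exact hx.b1 _ (Nat.div_lt_of_lt_mul hs2) _ (Nat.mod_lt _ hd) hs1
  · have hd : 0 < M.d := by
      rcases Nat.eq_zero_or_pos M.d with h | h
      · rw [h] at hj2; omega
      · exact h
    have hja : j / M.d < M.d := Nat.div_lt_of_lt_mul hj2
    have hjb : j % M.d < M.d := Nat.mod_lt _ hd
    refine ⟨wdg (x (j / M.d)) (x (j % M.d)), 0, fun v => wdg_self _ _ v, ?_⟩
    intro s hs
    unfold Md.okS at hs
    rw [Bool.or_eq_true, beq_iff_eq, Bool.and_eq_true, decide_eq_true_eq, decide_eq_true_eq] at hs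
    unfold sym
    split_ifs with h1 h2 h2
    · exact absurd (h2.symm.trans h1) (by omega)
    · rfl
    · subst h2
      rw [wdg_apply, hx.xe _ hja _ hja, hx.xe _ hjb _ hjb, hx.xe _ hjb _ hja, hx.xe _ hja _ hjb, if_pos rfl, if_pos rfl,
        if_neg (by omega), if_neg (by omega)]
      ring
    · rcases hs with hs | ⟨hs1, hs2⟩
      · exact absurd hs h1
      · have hsa : s / M.d < M.d := Nat.div_lt_of_lt_mul hs2
        have hsb : s % M.d < M.d := Nat.mod_lt _ hd
        rw [wdg_apply, hx.xe _ hja _ hsa, hx.xe _ hjb _ hsb, hx.xe _ hjb _ hsa, hx.xe _ hja _ hsb]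
        have e1 : ¬ (j / M.d = s / M.d ∧ j % M.d = s % M.d) := by
          rintro ⟨h3, h4⟩
          apply h2
          rw [← Nat.div_add_mod s M.d, ← Nat.div_add_mod j M.d, h3, h4]
        by_cases h3 : j / M.d = s / M.d
        · rw [if_pos h3, if_neg (fun h4 => e1 ⟨h3, h4⟩), if_neg (show ¬ (j / M.d = s % M.d) by omega)]; ring
        · rw [if_neg h3]
          by_cases h4 : j % M.d = s / M.d
          · rw [if_neg (show ¬ (j / M.d = s % M.d) by omega)]; ring
          · rw [if_neg h4]; ring

theorem castsum {α : Type*} (L : List α) (f : α → ℤ) : (((L.map f).sum : ℤ) : F) = (L.map fun a => ((f a : ℤ) : F)).sum := by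
  induction L with
  | nil => simp
  | cons a L ih => rw [List.map_cons, List.sum_cons, Int.cast_add, ih, List.map_cons, List.sum_cons]

theorem pv_of_form {n k j : ℕ} {β : LinearMap.BilinForm F V} {c : F} (h : ∀ s, M.okS s = true → sym M e β c s = if s = j then 1 else 0)
    (hk : ∀ z ∈ M.PL n k, M.okS z.1 = true) : pv M n e β c k = ((M.co n j k : ℤ) : F) := by
  unfold pv Md.co
  rw [castsum]
  congr 1
  apply List.map_congr_left
  intro s hs
  rw [h _ (hk s hs)]
  split_ifs <;> simp

theorem nchk {n l : ℕ} {L : ℕ → List (ℕ × ℤ)} (h : M.chkN n l L = true) {k : ℕ} (hk : k < n + l) :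
    (∀ z ∈ L k, M.okS z.1 = true) ∧ (∀ z ∈ M.PL n k, M.okS z.1 = true) ∧
    ∀ i < n + l, ((L k).map fun z => z.2 * M.co n z.1 i).sum = if k = i then 1 else 0 := by
  unfold Md.chkN at h
  rw [allB_iff] at h
  have h1 := h k hk
  rw [Bool.and_eq_true, Bool.and_eq_true, List.all_eq_true, List.all_eq_true, allB_iff] at h1
  exact ⟨h1.1.1, h1.1.2, fun i hi => of_decide_eq_true (h1.2 i hi)⟩

theorem pr_sum (D : ChevalleyDatum) (n : ℕ) {α : Type*} (L : List α) (f : α → ℤ) (p : α → ℕ → F) (u : D.Idx → F) :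
    pr D n (fun i => (L.map fun z => (f z : F) * p z i).sum) u = (L.map fun z => (f z : F) * pr D n (p z) u).sum := by
  induction L with
  | nil => simp [pr]
  | cons a L ih =>
    rw [List.map_cons, List.sum_cons, ← ih]
    unfold pr
    rw [Finset.mul_sum, ← Finset.sum_add_distrib]
    apply Finset.sum_congr rfl
    intro i _
    simp only [List.map_cons, List.sum_cons]
    ring

theorem nondeg {D : ChevalleyDatum} {n l : ℕ} (hn : D.nroots = n) (hl : D.rank = l) {L : ℕ → List (ℕ × ℤ)} (hL : M.chkN n l L = true)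
    (hx : Cf M Q e x β₀) {u : D.Idx → F}
    (hu : ∀ (β : LinearMap.BilinForm F V) (c : F), (∀ v, β v v = c * Q v) → pr D n (pv M n e β c) u = 0) : u = 0 := by
  -- the pairing with the symbol functions vanishes
  have h1 : ∀ j, M.okS j = true → pr D n (fun i => ((M.co n j i : ℤ) : F)) u = 0 := by
    intro j hj
    obtain ⟨β, c, hβ, hs⟩ := exists_form hx hj
    rw [← hu β c hβ]
    unfold pr
    apply Finset.sum_congr rfl
    intro i _
    congr 1
    have hi : ix D n i < n + l := by
      rcases i with i | i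
      · have := i.2; show n + i.1 < n + l; omega
      · have := i.2; show i.1 < n + l; omega
    exact (pv_of_form hs (nchk hL hi).2.1).symm
  have h2 : ∀ k < n + l, pr D n (fun i => if k = i then (1 : F) else 0) u = 0 := by
    intro k hk
    obtain ⟨h3, h4, h5⟩ := nchk hL hk
    have e1 : pr D n (fun i => if k = i then (1 : F) else 0) u =
        pr D n (fun i => ((L k).map fun z => ((z.2 : ℤ) : F) * ((M.co n z.1 i : ℤ) : F)).sum) u := by
      unfold pr
      apply Finset.sum_congr rfl
      intro i _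
      congr 1
      have hi : ix D n i < n + l := by
        rcases i with i | i
        · have := i.2; show n + i.1 < n + l; omega
        · have := i.2; show i.1 < n + l; omega
      have e2 : (if k = ix D n i then (1 : F) else 0) = (((if k = ix D n i then (1 : ℤ) else 0) : ℤ) : F) := by
        split_ifs <;> simp
      beta_reduce
      rw [e2, ← h5 _ hi, castsum]
      congr 1
      apply List.map_congr_left
      intro z _
      push_cast
      rfl
    rw [e1, pr_sum]
    apply List.sum_eq_zero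
    intro y hy
    rw [List.mem_map] at hy
    obtain ⟨z, hz, rfl⟩ := hy
    rw [h1 _ (h3 z hz), mul_zero]
  ext i
  have hi : ix D n i < n + l := by
    rcases i with i | i
    · have := i.2; show n + i.1 < n + l; omega
    · have := i.2; show i.1 < n + l; omega
  have h3 := h2 _ hi
  unfold pr at h3
  rw [Finset.sum_eq_single i] at h3
  · beta_reduce at h3
    rwa [if_pos rfl, mul_one] at h3
  · intro j _ hj
    beta_reduce
    rw [if_neg, mul_zero]
    intro h
    apply hj
    rcases i with i | i <;> rcases j with j | j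
    · have h' : n + i.1 = n + j.1 := h
      congr 1; apply Fin.ext; omega
    · have h' : n + i.1 = j.1 := h
      have := j.2; omega
    · have h' : i.1 = n + j.1 := h
      have := i.2; omega
    · have h' : i.1 = j.1 := h
      congr 1; apply Fin.ext; omega
  · intro h; exact absurd (Finset.mem_univ _) h

theorem Rel.unique {D : ChevalleyDatum} {n l : ℕ} (hn : D.nroots = n) (hl : D.rank = l) {L : ℕ → List (ℕ × ℤ)} (hL : M.chkN n l L = true)
    (hx : Cf M Q e x β₀) {g : OGrp Q} {h h' : GL D.Idx F} (H : Rel M D n Q e g h) (H' : Rel M D n Q e g h') : h = h' := by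
  apply Units.ext
  apply Matrix.ext_of_mulVec_single
  intro i
  have h1 := nondeg hn hl hL hx (u := (h : Matrix D.Idx D.Idx F) *ᵥ Pi.single i 1 - (h' : Matrix D.Idx D.Idx F) *ᵥ Pi.single i 1) (by
    intro β c hβ
    have e1 : pr D n (pv M n e β c) ((h : Matrix D.Idx D.Idx F) *ᵥ Pi.single i 1 - (h' : Matrix D.Idx D.Idx F) *ᵥ Pi.single i 1) =
        pr D n (pv M n e β c) ((h : Matrix D.Idx D.Idx F) *ᵥ Pi.single i 1) - pr D n (pv M n e β c) ((h' : Matrix D.Idx D.Idx F) *ᵥ Pi.single i 1) :=
      (prL D n (pv M n e β c)).map_sub _ _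
    rw [e1, H β c hβ, H' β c hβ, sub_self])
  exact sub_eq_zero.1 h1

end ND

/-- a total single valued multiplicative relation is a homomorphism -/
theorem exists_hom {A B : Type*} [Group A] [Group B] (R : A → B → Prop) (tot : ∀ a, ∃ b, R a b)
    (uniq : ∀ a b b', R a b → R a b' → b = b') (mul : ∀ a b a' b', R a b → R a' b' → R (a * a') (b * b')) :
    ∃ φ : A →* B, ∀ a, R a (φ a) := by
  choose f hf using tot
  exact ⟨MonoidHom.mk' f (fun a b => uniq _ _ _ (hf _) (mul _ _ _ _ (hf a) (hf b))), hf⟩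

section Iso

variable {F V : Type*} [Field F] [AddCommGroup V] [Module F V] {M : Md} {Q : QuadraticForm F V} {e : ℕ → V}

variable {T : Tb} {D : ChevalleyDatum}

/-- the group generated by the root elements -/
noncomputable def G0 (M : Md) (n : ℕ) (Q : QuadraticForm F V) (e : ℕ → V) : Subgroup (OGrp Q) :=
  Subgroup.closure {g | ∃ r < n, ∃ t : F, g = (xe M Q e r t).1}

theorem rel_X (g : Good3 D T) (hc : M.chkR T.n T.l = true) (hcl : M.chkL T.n T.l = true) (hck : M.chk T.acc = true) (hd : 0 < M.d)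
    (hf : Fr M Q e) {r : ℕ} (hr : r < T.n) (t : F) : Rel M D T.n Q e (xe M Q e r t).1 (g.X r t) := by
  intro β c hβ u
  exact key g.link hc hcl hck hd hf hβ hr t u

theorem rel_tot (g : Good3 D T) (hc : M.chkR T.n T.l = true) (hcl : M.chkL T.n T.l = true) (hck : M.chk T.acc = true) (hd : 0 < M.d)
    (hf : Fr M Q e) {y : OGrp Q} (hy : y ∈ G0 M T.n Q e) : ∃ h ∈ D.group F, Rel M D T.n Q e y h := by
  induction hy using Subgroup.closure_induction with
  | mem y hy =>
    obtain ⟨r, hr, t, rfl⟩ := hy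
    exact ⟨_, g.X_mem_G r t, rel_X g hc hcl hck hd hf hr t⟩
  | one => exact ⟨1, Subgroup.one_mem _, Rel.one⟩
  | mul a b _ _ iha ihb =>
    obtain ⟨h, hh, H⟩ := iha
    obtain ⟨h', hh', H'⟩ := ihb
    exact ⟨h * h', Subgroup.mul_mem _ hh hh', H.mul H'⟩
  | inv a _ iha =>
    obtain ⟨h, hh, H⟩ := iha
    exact ⟨h⁻¹, Subgroup.inv_mem _ hh, H.inv⟩

theorem rel_surj (g : Good3 D T) (hc : M.chkR T.n T.l = true) (hcl : M.chkL T.n T.l = true) (hck : M.chk T.acc = true) (hd : 0 < M.d)
    (hf : Fr M Q e) {h : GL D.Idx F} (hh : h ∈ D.group F) : ∃ y ∈ G0 M T.n Q e, Rel M D T.n Q e y h := by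
  rw [g.G_eq] at hh
  induction hh using Subgroup.closure_induction with
  | mem y hy =>
    obtain ⟨r, t, hr, rfl⟩ := hy
    exact ⟨_, Subgroup.subset_closure ⟨r, hr, t, rfl⟩, rel_X g hc hcl hck hd hf hr t⟩
  | one => exact ⟨1, Subgroup.one_mem _, Rel.one⟩
  | mul a b _ _ iha ihb =>
    obtain ⟨h, hh, H⟩ := iha
    obtain ⟨h', hh', H'⟩ := ihb
    exact ⟨h * h', Subgroup.mul_mem _ hh hh', H.mul H'⟩
  | inv a _ iha =>
    obtain ⟨h, hh, H⟩ := iha
    exact ⟨h⁻¹, Subgroup.inv_mem _ hh, H.inv⟩

/-- the isomorphism of the adjoint orthogonal group with the Chevalley group -/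
theorem iso_G0 (g : Good3 D T) (hc : M.chkR T.n T.l = true) (hcl : M.chkL T.n T.l = true) (hck : M.chk T.acc = true) (hd : 0 < M.d)
    (hf : Fr M Q e) {L : ℕ → List (ℕ × ℤ)} (hL : M.chkN T.n T.l L = true) {x : ℕ → Module.Dual F V} {β₀ : LinearMap.BilinForm F V}
    (hx : Cf M Q e x β₀)
    (hker : ∀ y ∈ G0 M T.n Q e, Rel M D T.n Q e y 1 → ∀ r < T.n, ∀ t : F, (xe M Q e r t).1 * y = y * (xe M Q e r t).1)
    (hs : IsSimpleGroup ↥(D.group F)) (hnc : ¬ IsMulCommutative ↥(D.group F)) :
    Nonempty ((↥(G0 M T.n Q e) ⧸ Subgroup.center ↥(G0 M T.n Q e)) ≃* ↥(D.group F)) := by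
  obtain ⟨φ, hφ⟩ := exists_hom (A := ↥(G0 M T.n Q e)) (B := ↥(D.group F)) (fun a b => Rel M D T.n Q e a.1 b.1)
    (fun a => by
      obtain ⟨h, hh, H⟩ := rel_tot g hc hcl hck hd hf a.2
      exact ⟨⟨h, hh⟩, H⟩)
    (fun a b b' h h' => Subtype.ext (Rel.unique g.hn g.hl hL hx h h'))
    (fun a b a' b' h h' => h.mul h')
  have hsurj : Function.Surjective φ := by
    intro b
    obtain ⟨y, hy, H⟩ := rel_surj g hc hcl hck hd hf b.2
    exact ⟨⟨y, hy⟩, Subtype.ext (Rel.unique g.hn g.hl hL hx (hφ ⟨y, hy⟩) H)⟩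
  have hk : φ.ker = Subgroup.center ↥(G0 M T.n Q e) := by
    apply le_antisymm
    · intro y hy
      rw [MonoidHom.mem_ker] at hy
      have h1 : Rel M D T.n Q e y.1 1 := by
        have := hφ y
        rw [hy] at this
        exact this
      have h2 := hker y.1 y.2 h1
      rw [Subgroup.mem_center_iff]
      intro z
      apply Subtype.ext
      show z.1 * y.1 = y.1 * z.1
      obtain ⟨z, hz⟩ := z
      show z * y.1 = y.1 * z
      induction hz using Subgroup.closure_induction with
      | mem z hz =>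
        obtain ⟨r, hr, t, rfl⟩ := hz
        exact h2 r hr t
      | one => rw [one_mul, mul_one]
      | mul a b _ _ iha ihb => rw [mul_assoc, ihb, ← mul_assoc, iha, mul_assoc]
      | inv a _ iha => rw [inv_mul_eq_iff_eq_mul, ← mul_assoc, iha, mul_assoc, mul_inv_cancel, mul_one]
    · intro y hy
      rw [MonoidHom.mem_ker]
      have hz : φ y ∈ Subgroup.center ↥(D.group F) := by
        rw [Subgroup.mem_center_iff]
        intro b
        obtain ⟨z, rfl⟩ := hsurj b
        rw [← map_mul, ← map_mul, Subgroup.mem_center_iff.1 hy z]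
      rcases hs.eq_bot_or_eq_top_of_normal _ (inferInstance : (Subgroup.center ↥(D.group F)).Normal) with h | h
      · rw [h, Subgroup.mem_bot] at hz
        exact hz
      · exfalso
        apply hnc
        refine ⟨⟨fun a b => ?_⟩⟩
        have : a ∈ Subgroup.center ↥(D.group F) := by rw [h]; trivial
        exact (Subgroup.mem_center_iff.1 this b).symm
  exact ⟨(QuotientGroup.quotientMulEquivOfEq hk.symm).trans (QuotientGroup.quotientKerEquivOfSurjective φ hsurj)⟩

end Iso

end Cfsg.Agent.H22.Cv
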