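import Cfsg.Agent.LibH22Cv3

set_option autoImplicit false

/-! The Eichler group is generated by the root elements of a frame. -/

namespace Cfsg.Agent.H22.Cv

open CfsgLib.Chev Cfsg.Lie Matrix

variable {F V : Type*} [Field F] [AddCommGroup V] [Module F V] {M : Md} {Q : QuadraticForm F V} {e : ℕ → V}

local notation "B" => QuadraticMap.polar Q

/-- all pairs are root pairs -/
noncomputable def _root_.Cfsg.Agent.H22.Cv.Md.chkP (M : Md) (n : ℕ) : Bool :=
  allB M.d fun a => allB M.d fun b => (a == b) || (a + b == M.d - 1) || (a + a == M.d - 1) ||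
    (List.range n).any fun r => (M.A r == a && M.B r == b) || (M.A r == b && M.B r == a)

theorem chkP_mD4 : mD4.chkP 24 = true := by decide +kernel
theorem chkP_mB2 : mB2.chkP 8 = true := by decide +kernel

theorem pchk {n : ℕ} (h : M.chkP n = true) {a b : ℕ} (ha : a < M.d) (hb : b < M.d) (h1 : a ≠ b) (h2 : a + b ≠ M.d - 1)
    (h3 : a + a ≠ M.d - 1) : ∃ r < n, (M.A r = a ∧ M.B r = b) ∨ (M.A r = b ∧ M.B r = a) := by
  unfold Md.chkP at h
  rw [allB_iff] at h
  have := h a ha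
  rw [allB_iff] at this
  have := this b hb
  simp only [Bool.or_eq_true, beq_iff_eq, List.any_eq_true, List.mem_range, Bool.and_eq_true] at this
  rcases this with ((h4 | h4) | h4) | ⟨r, hr, h4⟩
  · exact absurd h4 h1
  · exact absurd h4 h2
  · exact absurd h4 h3
  · exact ⟨r, hr, h4⟩

theorem fr_sing (hf : Fr M Q e) {a : ℕ} (ha : a < M.d) (h : a + a ≠ M.d - 1) : Q (e a) = 0 := by
  rw [hf.q _ ha]; unfold Md.qq; rw [if_neg h]; simp

theorem fr_orth (hf : Fr M Q e) {a b : ℕ} (ha : a < M.d) (hb : b < M.d) (h : a + b ≠ M.d - 1) : B (e a) (e b) = 0 := by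
  rw [hf.pol _ ha _ hb]; unfold Md.bb; rw [if_neg h]; simp

theorem fr_dual (hf : Fr M Q e) {a b : ℕ} (ha : a < M.d) (hb : b < M.d) (h : a + b = M.d - 1) (h' : a ≠ b) : B (e a) (e b) = 1 := by
  rw [hf.pol _ ha _ hb]; unfold Md.bb; rw [if_pos h, if_neg h']; simp

theorem xe_mem {n : ℕ} {r : ℕ} (hr : r < n) (t : F) : (xe M Q e r t).1 ∈ G0 M n Q e :=
  Subgroup.subset_closure ⟨r, hr, t, rfl⟩

/-- elementary Eichler elements belong to `G0` -/
theorem E_pair {n l : ℕ} (hc : M.chkR n l = true) (hp : M.chkP n = true) (hf : Fr M Q e) {a b : ℕ} (ha : a < M.d) (hb : b < M.d)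
    (h1 : a ≠ b) (h2 : a + b ≠ M.d - 1) (h3 : a + a ≠ M.d - 1) (c : F) :
    (CfsgLib.AutO27.E Q (e a) (c • e b)).1 ∈ G0 M n Q e := by
  obtain ⟨r, hr, h⟩ := pchk hp ha hb h1 h2 h3
  obtain ⟨-, -, -, -, h5, h6⟩ := rchk hc hr
  have hS : ((M.S r : ℤ) : F) * ((M.S r : ℤ) : F) = 1 := by
    rcases h6 with h | h <;> rw [h] <;> simp
  rcases h with ⟨hA, hB⟩ | ⟨hA, hB⟩
  · have e1 : CfsgLib.AutO27.E Q (e a) (c • e b) = xe M Q e r (-(c * ((M.S r : ℤ) : F))) := by
      unfold xe
      rw [hA, hB]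
      congr 2
      linear_combination -c * hS
    rw [e1]; exact xe_mem hr _
  · rw [hA] at h5
    have hqa := fr_sing hf ha h3
    have hqb := fr_sing hf hb h5
    have hab := fr_orth hf ha hb h2
    have hab' : B (e a) (c • e b) = 0 := by rw [QuadraticMap.polar_smul_right, hab, smul_zero]
    have hqb' : Q (c • e b) = 0 := by rw [QuadraticMap.map_smul, hqb, smul_zero]
    have e1 : CfsgLib.AutO27.E Q (e a) (c • e b) = xe M Q e r (c * ((M.S r : ℤ) : F)) := by
      rw [CfsgLib.AutO27.E_swap hqa hqb' hab', CfsgLib.AutO27.E_smul_left hqb (by rw [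
        QuadraticMap.polar_neg_right, QuadraticMap.polar_comm, hab, neg_zero])]
      unfold xe
      rw [hA, hB, smul_neg, ← neg_smul]
      congr 2
      linear_combination c * hS
    rw [e1]; exact xe_mem hr _

/-- Eichler elements at a frame vector -/
theorem E_sum {n l : ℕ} (hc : M.chkR n l = true) (hp : M.chkP n = true) (hf : Fr M Q e) {a : ℕ} (ha : a < M.d)
    (h3 : a + a ≠ M.d - 1) (c : ℕ → F) (S : Finset ℕ) (hS : ∀ b ∈ S, b < M.d ∧ a + b ≠ M.d - 1) :
    (CfsgLib.AutO27.E Q (e a) (∑ b ∈ S, c b • e b)).1 ∈ G0 M n Q e ∧ B (e a) (∑ b ∈ S, c b • e b) = 0 := by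
  classical
  induction S using Finset.induction_on with
  | empty =>
    rw [Finset.sum_empty, CfsgLib.AutO27.E_zero]
    exact ⟨Subgroup.one_mem _, by simp⟩
  | insert b S hbS ih =>
    obtain ⟨ih1, ih2⟩ := ih (fun b' hb' => hS b' (Finset.mem_insert_of_mem hb'))
    obtain ⟨hb1, hb2⟩ := hS b (Finset.mem_insert_self _ _)
    have hqa := fr_sing hf ha h3
    have hab := fr_orth hf ha hb1 hb2
    have hab' : B (e a) (c b • e b) = 0 := by rw [QuadraticMap.polar_smul_right, hab, smul_zero]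
    rw [Finset.sum_insert hbS]
    refine ⟨?_, by rw [QuadraticMap.polar_add_right, hab', ih2, add_zero]⟩
    rw [← CfsgLib.AutO27.E_mul hqa hab' ih2]
    refine Subgroup.mul_mem _ ?_ ih1
    by_cases h : a = b
    · subst h
      rw [CfsgLib.AutO27.E_smul_self hqa]
      exact Subgroup.one_mem _
    · exact E_pair hc hp hf ha hb1 h hb2 h3 _

variable {x : ℕ → Module.Dual F V} {β₀ : LinearMap.BilinForm F V}

theorem pol_x (hf : Fr M Q e) (hx : Cf M Q e x β₀) {a : ℕ} (ha : a < M.d) (h3 : a + a ≠ M.d - 1) (v : V) :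
    B (e a) v = x (M.d - 1 - a) v := by
  conv_lhs => rw [hx.sp v]
  have hd : M.d - 1 - a < M.d := by omega
  have e1 : B (e a) (∑ b ∈ Finset.range M.d, x b v • e b) = ∑ b ∈ Finset.range M.d, x b v * B (e a) (e b) := by
    have := map_sum (QuadraticMap.polarBilin Q (e a)) (fun b => x b v • e b) (Finset.range M.d)
    rw [QuadraticMap.polarBilin_apply_apply] at this
    rw [this]
    apply Finset.sum_congr rfl
    intro b _
    rw [QuadraticMap.polarBilin_apply_apply, QuadraticMap.polar_smul_right, smul_eq_mul]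
  rw [e1, Finset.sum_eq_single (M.d - 1 - a)]
  · rw [fr_dual hf ha hd (by omega) (by omega), mul_one]
  · intro b hb hne
    rw [Finset.mem_range] at hb
    rw [fr_orth hf ha hb (by omega), mul_zero]
  · intro h; exact absurd (Finset.mem_range.2 hd) h

theorem E_frame {n l : ℕ} (hc : M.chkR n l = true) (hp : M.chkP n = true) (hf : Fr M Q e) (hx : Cf M Q e x β₀) {a : ℕ} (ha : a < M.d)
    (h3 : a + a ≠ M.d - 1) {w : V} (hw : B (e a) w = 0) : (CfsgLib.AutO27.E Q (e a) w).1 ∈ G0 M n Q e := by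
  classical
  rw [pol_x hf hx ha h3] at hw
  have e1 : w = ∑ b ∈ (Finset.range M.d).filter (fun b => a + b ≠ M.d - 1), x b w • e b := by
    conv_lhs => rw [hx.sp w]
    rw [Finset.sum_filter]
    apply Finset.sum_congr rfl
    intro b hb
    rw [Finset.mem_range] at hb
    split_ifs with h
    · rfl
    · have h' : a + b = M.d - 1 := not_not.1 h
      have : b = M.d - 1 - a := by omega
      rw [this, hw, zero_smul]
  rw [e1]
  refine (E_sum hc hp hf ha h3 _ _ ?_).1
  intro b hb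
  rw [Finset.mem_filter, Finset.mem_range] at hb
  exact hb

/-- moving a singular vector to a multiple of `e 0` -/
theorem move {n l : ℕ} (hc : M.chkR n l = true) (hp : M.chkP n = true) (hd : 4 < M.d) (hf : Fr M Q e) (hx : Cf M Q e x β₀)
    (hmid : ∀ v, Q v = 0 → (∀ b < M.d, b + b ≠ M.d - 1 → b ≠ M.d - 1 → x b v = 0) → ∀ b < M.d, b ≠ M.d - 1 → x b v = 0)
    (v : V) (hv : Q v = 0) (hv0 : v ≠ 0) : ∃ y : EG Q, y.1 ∈ G0 M n Q e ∧ ∃ c : F, c ≠ 0 ∧ y.1.1 v = c • e 0 := by
  classical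
  -- case A
  have hA : ∀ v, Q v = 0 → x 0 v ≠ 0 → ∃ y : EG Q, y.1 ∈ G0 M n Q e ∧ ∃ c : F, c ≠ 0 ∧ y.1.1 v = c • e 0 := by
    intro v hv h0
    have hdd : M.d - 1 < M.d := by omega
    have h3 : (M.d - 1) + (M.d - 1) ≠ M.d - 1 := by omega
    have hq := fr_sing hf hdd h3
    obtain ⟨w, hw⟩ : ∃ w, w = (-(x 0 v)⁻¹) • (v - x 0 v • e 0 - x (M.d - 1) v • e (M.d - 1)) := ⟨_, rfl⟩
    have hx0 : ∀ v, B (e (M.d - 1)) v = x 0 v := by
      intro v
      have := pol_x hf hx hdd h3 v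
      rwa [Nat.sub_self] at this
    have hBw : B (e (M.d - 1)) w = 0 := by
      rw [hx0, hw, map_smul, map_sub, map_sub, map_smul, map_smul, hx.xe 0 (by omega) 0 (by omega), if_pos rfl,
        hx.xe 0 (by omega) _ hdd, if_neg (by omega)]
      simp
    refine ⟨CfsgLib.AutO27.E Q (e (M.d - 1)) w, E_frame hc hp hf hx hdd h3 hBw, x 0 v, h0, ?_⟩
    have h1 : ∃ c : F, (CfsgLib.AutO27.E Q (e (M.d - 1)) w).1.1 v = x 0 v • e 0 + c • e (M.d - 1) := by
      refine ⟨x (M.d - 1) v - B w v - Q w * x 0 v, ?_⟩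
      rw [CfsgLib.AutO27.E_apply hq hBw, hx0]
      conv_lhs => rw [show x 0 v • w = -(v - x 0 v • e 0 - x (M.d - 1) v • e (M.d - 1)) by
        rw [hw, smul_smul, mul_neg, mul_inv_cancel₀ h0, neg_one_smul]]
      module
    obtain ⟨c, hcc⟩ := h1
    have h2 : Q (x 0 v • e 0 + c • e (M.d - 1)) = 0 := by
      rw [← hcc, CfsgLib.AutO27.g_Q, hv]
    rw [qadd, QuadraticMap.map_smul, QuadraticMap.map_smul, hq, fr_sing hf (show 0 < M.d by omega) (by omega),
      QuadraticMap.polar_smul_left, QuadraticMap.polar_smul_right, fr_dual hf (show 0 < M.d by omega) hdd (by omega) (by omega)] at h2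
    have h4 : c = 0 := by
      simp only [smul_zero, zero_add, smul_eq_mul, mul_one, mul_zero] at h2
      exact (mul_eq_zero.1 h2).resolve_left h0
    rw [hcc, h4, zero_smul, add_zero]
  -- case B
  have hB : ∀ v, Q v = 0 → x 0 v = 0 → ∀ b < M.d, b + b ≠ M.d - 1 → b ≠ M.d - 1 → x b v ≠ 0 →
      ∃ y : EG Q, y.1 ∈ G0 M n Q e ∧ ∃ c : F, c ≠ 0 ∧ y.1.1 v = c • e 0 := by
    intro v hv h0 b hb hb2 hb1 hxb
    have hb0 : b ≠ 0 := by rintro rfl; exact hxb h0
    have hb' : M.d - 1 - b < M.d := by omega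
    have hq0 := fr_sing hf (show 0 < M.d by omega) (by omega : 0 + 0 ≠ M.d - 1)
    have hor := fr_orth hf (show 0 < M.d by omega) hb' (by omega)
    obtain ⟨y, hy⟩ : ∃ y, y = CfsgLib.AutO27.E Q (e 0) ((1 : F) • e (M.d - 1 - b)) := ⟨_, rfl⟩
    have hyG : y.1 ∈ G0 M n Q e := by rw [hy]; exact E_pair hc hp hf (by omega) hb' (by omega) (by omega) (by omega) 1
    have h1 : x 0 (y.1.1 v) = -(x b v) := by
      rw [hy, one_smul, CfsgLib.AutO27.E_apply hq0 hor, map_sub, map_sub, map_add, map_smul, map_smul, map_smul,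
        hx.xe 0 (by omega) _ hb', hx.xe 0 (by omega) 0 (by omega), if_pos rfl, if_neg (by omega), h0,
        fr_sing hf hb' (by omega), pol_x hf hx hb' (by omega)]
      have : M.d - 1 - (M.d - 1 - b) = b := by omega
      rw [this]
      simp
    obtain ⟨z, hzG, c, hc0, hz⟩ := hA (y.1.1 v) (by rw [CfsgLib.AutO27.g_Q, hv]) (by rw [h1]; exact neg_ne_zero.2 hxb)
    refine ⟨z * y, Subgroup.mul_mem _ hzG hyG, c, hc0, ?_⟩
    rw [CfsgLib.AutO27.mul_app]; exact hz
  by_cases h0 : x 0 v = 0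
  · by_cases hb : ∃ b < M.d, b + b ≠ M.d - 1 ∧ b ≠ M.d - 1 ∧ x b v ≠ 0
    · obtain ⟨b, h1, h2, h3, h4⟩ := hb
      exact hB v hv h0 b h1 h2 h3 h4
    · -- case C
      push Not at hb
      have h5 := hmid v hv hb
      have h6 : v = x (M.d - 1) v • e (M.d - 1) := by
        conv_lhs => rw [hx.sp v]
        rw [Finset.sum_eq_single (M.d - 1)]
        · intro b hb' hne
          rw [Finset.mem_range] at hb'
          rw [h5 b hb' hne, zero_smul]
        · intro h; exact absurd (Finset.mem_range.2 (by omega)) h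
      have h7 : x (M.d - 1) v ≠ 0 := by
        intro h
        rw [h, zero_smul] at h6
        exact hv0 h6
      have hq1 := fr_sing hf (show 1 < M.d by omega) (by omega : 1 + 1 ≠ M.d - 1)
      have hor := fr_orth hf (show 1 < M.d by omega) (show 0 < M.d by omega) (by omega)
      obtain ⟨y, hy⟩ : ∃ y, y = CfsgLib.AutO27.E Q (e 1) ((1 : F) • e 0) := ⟨_, rfl⟩
      have hyG : y.1 ∈ G0 M n Q e := by rw [hy]; exact E_pair hc hp hf (by omega) (by omega) (by omega) (by omega) (by omega) 1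
      have h8 : y.1.1 v = v - x (M.d - 1) v • e 1 := by
        rw [hy, one_smul, CfsgLib.AutO27.E_apply hq1 hor, pol_x hf hx (by omega) (by omega), pol_x hf hx (by omega) (by omega),
          fr_sing hf (show 0 < M.d by omega) (by omega), h5 (M.d - 1 - 1) (by omega) (by omega), Nat.sub_zero]
        simp
      have h9 : x 1 (y.1.1 v) ≠ 0 := by
        rw [h8, map_sub, h5 1 (by omega) (by omega), map_smul, hx.xe 1 (by omega) 1 (by omega), if_pos rfl]
        simpa using h7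
      have h10 : x 0 (y.1.1 v) = 0 := by
        rw [h8, map_sub, h0, map_smul, hx.xe 0 (by omega) 1 (by omega), if_neg (by omega)]
        simp
      obtain ⟨z, hzG, c, hc0, hz⟩ := hB (y.1.1 v) (by rw [CfsgLib.AutO27.g_Q, hv]) h10 1 (by omega) (by omega) (by omega) h9
      refine ⟨z * y, Subgroup.mul_mem _ hzG hyG, c, hc0, ?_⟩
      rw [CfsgLib.AutO27.mul_app]; exact hz
  · exact hA v hv h0

/-- the root elements generate the Eichler group -/
theorem G0_eq {n l : ℕ} (hc : M.chkR n l = true) (hp : M.chkP n = true) (hd : 4 < M.d) (hf : Fr M Q e) (hx : Cf M Q e x β₀)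
    (hmid : ∀ v, Q v = 0 → (∀ b < M.d, b + b ≠ M.d - 1 → b ≠ M.d - 1 → x b v = 0) → ∀ b < M.d, b ≠ M.d - 1 → x b v = 0) :
    G0 M n Q e = EG Q := by
  apply le_antisymm
  · unfold G0
    rw [Subgroup.closure_le]
    rintro _ ⟨r, hr, t, rfl⟩
    exact (xe M Q e r t).2
  · unfold EG
    rw [Subgroup.closure_le]
    rintro _ ⟨v, w, hv, hw, rfl⟩
    have e1 : oEich Q v w hv hw = (CfsgLib.AutO27.E Q v w).1 := by rw [CfsgLib.AutO27.E_def hv hw]
    rw [e1]
    by_cases hv0 : v = 0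
    · have e2 : CfsgLib.AutO27.E Q v w = 1 := by
        apply CfsgLib.AutO27.g_ext
        intro z
        rw [CfsgLib.AutO27.E_apply hv hw, hv0, CfsgLib.AutO27.one_app]
        simp
      rw [e2]; exact Subgroup.one_mem _
    · obtain ⟨y, hyG, c, hc0, hy⟩ := move hc hp hd hf hx hmid v hv hv0
      have hq0 := fr_sing hf (show 0 < M.d by omega) (by omega : 0 + 0 ≠ M.d - 1)
      have h1 := CfsgLib.AutO27.E_conj y v w
      rw [hy] at h1
      have h2' : B (c • e 0) (y.1.1 w) = 0 := by rw [← hy, CfsgLib.AutO27.g_polar, hw]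
      have h2 : B (e 0) (y.1.1 w) = 0 := by
        rw [QuadraticMap.polar_smul_left, smul_eq_mul] at h2'
        exact (mul_eq_zero.1 h2').resolve_left hc0
      rw [CfsgLib.AutO27.E_smul_left hq0 h2] at h1
      have h3 : B (e 0) (c • y.1.1 w) = 0 := by
        rw [QuadraticMap.polar_smul_right, h2, smul_zero]
      have h4 := E_frame hc hp hf hx (show 0 < M.d by omega) (by omega) h3
      rw [← h1] at h4
      have h5 : (CfsgLib.AutO27.E Q v w).1 = y.1⁻¹ * (y * CfsgLib.AutO27.E Q v w * y⁻¹).1 * y.1 := by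
        show _ = y.1⁻¹ * (y.1 * (CfsgLib.AutO27.E Q v w).1 * y.1⁻¹) * y.1
        group
      rw [h5]
      exact Subgroup.mul_mem _ (Subgroup.mul_mem _ (Subgroup.inv_mem _ hyG) h4) hyG

end Cfsg.Agent.H22.Cv
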