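import Cfsg.Agent.LibH22Cv4
import Cfsg.Agent.LibH22OForms

set_option autoImplicit false

/-! D4: the frame, the kernel, the isomorphism with POmega8+. -/

namespace Cfsg.Agent.H22.Cv

open CfsgLib.Chev Cfsg.Lie Matrix

section Ker

variable {F V : Type*} [Field F] [AddCommGroup V] [Module F V] {M : Md} {Q : QuadraticForm F V} {e : ℕ → V}

local notation "B" => QuadraticMap.polar Q

variable {D : ChevalleyDatum}

theorem pv_eq {n l : ℕ} (hn : D.nroots = n) (hl : D.rank = l) {y : OGrp Q} (H : Rel M D n Q e y 1) {β : LinearMap.BilinForm F V} {c : F}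
    (hβ : ∀ v, β v v = c * Q v) {k : ℕ} (hk : k < n + l) : pv M n e (pb β y.1) c k = pv M n e β c k := by
  have h := H β c hβ (bV D F n k)
  rw [Units.val_one, Matrix.one_mulVec, pr_bV D n l hn hl _ hk, pr_bV D n l hn hl _ hk] at h
  exact h.symm

/-- the difference form on the frame -/
def dl (e : ℕ → V) (β : LinearMap.BilinForm F V) (y : OGrp Q) (a b : ℕ) : F := pb β y.1 (e a) (e b) - β (e a) (e b)

theorem dl_anti {β : LinearMap.BilinForm F V} {c : F} (hβ : ∀ v, β v v = c * Q v) (y : OGrp Q) (a b : ℕ) :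
    dl e β y a b = - dl e β y b a := by
  unfold dl
  have h1 := form_anti hβ (e a) (e b)
  have h2 := form_anti (pb_form hβ y) (e a) (e b)
  linear_combination h2 - h1

theorem dl_self {β : LinearMap.BilinForm F V} {c : F} (hβ : ∀ v, β v v = c * Q v) (y : OGrp Q) (a : ℕ) :
    dl e β y a a = 0 := by
  unfold dl
  rw [hβ, pb_form hβ, sub_self]

theorem dl_root {n l : ℕ} (hn : D.nroots = n) (hl : D.rank = l) (hc : M.chkR n l = true) (hp : M.chkP n = true)
    {y : OGrp Q} (H : Rel M D n Q e y 1) {β : LinearMap.BilinForm F V} {c : F} (hβ : ∀ v, β v v = c * Q v) {a b : ℕ}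
    (ha : a < M.d) (hb : b < M.d) (h1 : a ≠ b) (h2 : a + b ≠ M.d - 1) : dl e β y a b = 0 := by
  have key : ∀ a b, a < M.d → b < M.d → a ≠ b → a + b ≠ M.d - 1 → a + a ≠ M.d - 1 → dl e β y a b = 0 := by
    intro a b ha hb h1 h2 h3
    obtain ⟨r, hr, h⟩ := pchk hp ha hb h1 h2 h3
    obtain ⟨hAd, hBd, hne, -, -, h6⟩ := rchk hc hr
    have hS : ((M.S r : ℤ) : F) ≠ 0 := by
      rcases h6 with h | h <;> rw [h] <;> simp
    have h4 := pv_eq hn hl H hβ (k := r) (by omega)
    have hAB : dl e β y (M.A r) (M.B r) = 0 := by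
      unfold pv Md.PL at h4
      rw [if_pos hr] at h4
      split_ifs at h4 with h5
      · simp only [List.map_cons, List.map_nil, List.sum_cons, List.sum_nil, sym_ab hAd hBd, add_zero] at h4
        unfold dl
        rw [sub_eq_zero]
        exact mul_left_cancel₀ hS h4
      · simp only [List.map_cons, List.map_nil, List.sum_cons, List.sum_nil, sym_ab hBd hAd, add_zero, Int.cast_neg] at h4
        rw [dl_anti hβ, neg_eq_zero]
        unfold dl
        rw [sub_eq_zero]
        exact mul_left_cancel₀ (neg_ne_zero.2 hS) h4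
    rcases h with ⟨hA, hB⟩ | ⟨hA, hB⟩
    · rw [← hA, ← hB]; exact hAB
    · rw [dl_anti hβ, ← hA, ← hB, hAB, neg_zero]
  by_cases h3 : a + a = M.d - 1
  · rw [dl_anti hβ, key b a hb ha (Ne.symm h1) (by omega) (by omega), neg_zero]
  · exact key a b ha hb h1 h2 h3

theorem cart_val {n k : ℕ} (hk : ¬ k < n) (β : LinearMap.BilinForm F V) (c : F) :
    pv M n e β c k = ((M.hl.getD (k - n) []).map fun s => ((s.2 : ℤ) : F) * sym M e β c s.1).sum := by
  unfold pv Md.PL
  rw [if_neg hk]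

/-- a bilinear map with prescribed values on the frame -/
theorem frame_ext {x : ℕ → Module.Dual F V} {β₀ : LinearMap.BilinForm F V} (hx : Cf M Q e x β₀) {β β' : LinearMap.BilinForm F V}
    (h : ∀ a < M.d, ∀ b < M.d, β (e a) (e b) = β' (e a) (e b)) (v w : V) : β v w = β' v w := by
  rw [hx.sp v, hx.sp w]
  simp only [map_sum, LinearMap.sum_apply, map_smul, LinearMap.smul_apply]
  apply Finset.sum_congr rfl
  intro b hb
  congr 1
  apply Finset.sum_congr rfl
  intro a ha
  rw [h a (Finset.mem_range.1 ha) b (Finset.mem_range.1 hb)]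

/-- polar functional -/
def pf (Q : QuadraticForm F V) (a : V) : Module.Dual F V := QuadraticMap.polarBilin Q a

theorem pf_apply (a v : V) : pf Q a v = B a v := rfl

/-- the Lie algebra element -/
def le (Q : QuadraticForm F V) (a b w : V) : V := QuadraticMap.polar Q b w • a - QuadraticMap.polar Q a w • b

theorem le_sq {a b : V} (haa : B a a = 0) (hbb : B b b = 0) (hab : B a b = 0) (w : V) : le Q a b (le Q a b w) = 0 := by
  have hba : B b a = 0 := by rw [QuadraticMap.polar_comm, hab]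
  unfold le
  simp only [QuadraticMap.polar_sub_right, QuadraticMap.polar_smul_right, haa, hbb, hab, hba, smul_zero, sub_zero, zero_smul]

theorem le_add {a b : V} (v w : V) : le Q a b (v + w) = le Q a b v + le Q a b w := by
  unfold le
  simp only [QuadraticMap.polar_add_right]
  module

theorem le_smul {a b : V} (c : F) (w : V) : le Q a b (c • w) = c • le Q a b w := by
  unfold le
  simp only [QuadraticMap.polar_smul_right, smul_eq_mul]
  module

theorem og_polar_left (y : OGrp Q) (v w : V) : B v (y.1 w) = B ((y⁻¹ : OGrp Q).1 v) w := by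
  have h := og_polar y ((y⁻¹ : OGrp Q).1 v) w
  rw [og_inv_apply] at h
  exact h

theorem le_map (y : OGrp Q) (a b w : V) : le Q a b (y.1 w) = y.1 (le Q ((y⁻¹ : OGrp Q).1 a) ((y⁻¹ : OGrp Q).1 b) w) := by
  unfold le
  rw [map_sub, map_smul, map_smul, og_inv_apply, og_inv_apply, og_polar_left, og_polar_left]

/-- if the difference form is `m B` then the Lie algebra elements differ by `m` -/
theorem le_diff (hB : (QuadraticMap.polarBilin Q).Nondegenerate) (y : OGrp Q) (a b : V) (m : F)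
    (h : ∀ v w, pb (wdg (pf Q a) (pf Q b)) y.1 v w - wdg (pf Q a) (pf Q b) v w = m * B v w) (w : V) :
    le Q ((y⁻¹ : OGrp Q).1 a) ((y⁻¹ : OGrp Q).1 b) w = le Q a b w + m • w := by
  rw [← sub_eq_zero]
  by_contra hne
  obtain ⟨v, hv⟩ := exists_polar_ne hB hne
  apply hv
  have h1 := h v w
  rw [pb_apply, wdg_apply, wdg_apply, pf_apply, pf_apply, pf_apply, pf_apply, pf_apply, pf_apply, pf_apply, pf_apply,
    og_polar_left, og_polar_left, og_polar_left, og_polar_left] at h1
  unfold le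
  simp only [QuadraticMap.polar_sub_right, QuadraticMap.polar_add_right, QuadraticMap.polar_smul_right, smul_eq_mul,
    QuadraticMap.polar_comm Q _ v] at h1 ⊢
  linear_combination h1

end Ker

section D4

variable {F : Type*} [Field F]

/-- index map -/
def s8 (a : ℕ) : Fin 4 ⊕ Fin 4 := if a < 4 then Sum.inl (Fin.ofNat 4 a) else Sum.inr (Fin.ofNat 4 (7 - a))

theorem s8_swap : ∀ a < 8, ∀ b < 8, (s8 b = (s8 a).swap ↔ a + b = 7) := by decide
theorem s8_inj : ∀ a < 8, ∀ b < 8, (s8 a = s8 b ↔ a = b) := by decide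
theorem s8_surj : ∀ i : Fin 4 ⊕ Fin 4, ∃ a < 8, s8 a = i := by decide

variable (F) in
def eD (a : ℕ) : Fin 4 ⊕ Fin 4 → F := Pi.single (s8 a) 1

variable (F) in
def xD (a : ℕ) : Module.Dual F (Fin 4 ⊕ Fin 4 → F) := LinearMap.proj (s8 a)

variable (F) in
/-- `∑ y_i x'_i` -/
def bD (m : ℕ) : LinearMap.BilinForm F (Fin m ⊕ Fin m → F) :=
  LinearMap.mk₂ F (fun v w => ∑ i, v (Sum.inr i) * w (Sum.inl i))
    (by intro a b c; rw [← Finset.sum_add_distrib]; exact Finset.sum_congr rfl fun i _ => by rw [Pi.add_apply]; ring)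
    (by intro c a b; rw [Finset.smul_sum]; exact Finset.sum_congr rfl fun i _ => by rw [Pi.smul_apply, smul_eq_mul, smul_eq_mul]; ring)
    (by intro a b c; rw [← Finset.sum_add_distrib]; exact Finset.sum_congr rfl fun i _ => by rw [Pi.add_apply]; ring)
    (by intro c a b; rw [Finset.smul_sum]; exact Finset.sum_congr rfl fun i _ => by rw [Pi.smul_apply, smul_eq_mul, smul_eq_mul]; ring)

theorem bD_apply {m : ℕ} (v w : Fin m ⊕ Fin m → F) : bD F m v w = ∑ i, v (Sum.inr i) * w (Sum.inl i) := rfl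

theorem pol_single {m : ℕ} (s s' : Fin m ⊕ Fin m) : QuadraticMap.polar (qPlus m F) (Pi.single s 1) (Pi.single s' 1) =
    if s' = s.swap then 1 else 0 := by
  rw [polar_qPlus]
  rcases s with i | i
  · have h1 : ∀ j, (Pi.single (Sum.inl i) 1 : Fin m ⊕ Fin m → F) (Sum.inl j) = if j = i then 1 else 0 := by
      intro j; rw [Pi.single_apply]; simp
    have h2 : ∀ j, (Pi.single (Sum.inl i) 1 : Fin m ⊕ Fin m → F) (Sum.inr j) = 0 := by
      intro j; rw [Pi.single_apply]; simp
    simp only [h1, h2, zero_mul, add_zero, ite_mul, one_mul, Finset.sum_ite_eq', Finset.mem_univ, if_true]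
    rw [Pi.single_apply, Sum.swap_inl]
    simp only [eq_comm]
  · have h1 : ∀ j, (Pi.single (Sum.inr i) 1 : Fin m ⊕ Fin m → F) (Sum.inr j) = if j = i then 1 else 0 := by
      intro j; rw [Pi.single_apply]; simp
    have h2 : ∀ j, (Pi.single (Sum.inr i) 1 : Fin m ⊕ Fin m → F) (Sum.inl j) = 0 := by
      intro j; rw [Pi.single_apply]; simp
    simp only [h1, h2, zero_mul, zero_add, ite_mul, one_mul, Finset.sum_ite_eq', Finset.mem_univ, if_true]
    rw [Pi.single_apply, Sum.swap_inr]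
    simp only [eq_comm]

theorem q_single {m : ℕ} (s : Fin m ⊕ Fin m) : qPlus m F (Pi.single s 1) = 0 := by
  rw [coe_qPlus]
  unfold Cfsg.quadFormPlus
  apply Finset.sum_eq_zero
  intro i _
  rcases s with j | j <;> simp [Pi.single_apply]

theorem frD : Fr mD4 (qPlus 4 F) (eD F) where
  pol := by
    intro a ha b hb
    have ha' : a < 8 := ha
    have hb' : b < 8 := hb
    unfold eD
    rw [pol_single, if_congr (s8_swap a ha' b hb') rfl rfl]
    unfold Md.bb
    have e1 : mD4.d - 1 = 7 := rfl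
    rw [e1]
    split_ifs with h1 h2
    · omega
    · simp
    · simp
  q := by
    intro a ha
    unfold eD
    rw [q_single]
    unfold Md.qq
    have e1 : mD4.d - 1 = 7 := rfl
    rw [e1, if_neg (by omega)]
    simp

theorem cfD : Cf mD4 (qPlus 4 F) (eD F) (xD F) (bD F 4) where
  xe := by
    intro a ha b hb
    have ha' : a < 8 := ha
    have hb' : b < 8 := hb
    unfold xD eD
    rw [LinearMap.proj_apply, Pi.single_apply, if_congr (s8_inj a ha' b hb') rfl rfl]
  b0 := by
    intro v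
    rw [bD_apply, coe_qPlus]
    unfold Cfsg.quadFormPlus
    exact Finset.sum_congr rfl fun i _ => mul_comm _ _
  b1 := by
    intro a ha b hb hab
    have ha' : a < 8 := ha
    have hb' : b < 8 := hb
    rw [bD_apply]
    apply Finset.sum_eq_zero
    intro i _
    unfold eD
    rw [Pi.single_apply, Pi.single_apply]
    split_ifs with h1 h2
    · exfalso
      revert i
      interval_cases a <;> interval_cases b <;> first | omega | decide
    · simp
    · simp
    · simp
  sp := by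
    intro v
    ext i
    obtain ⟨a, ha, rfl⟩ := s8_surj i
    rw [Finset.sum_apply, Finset.sum_eq_single a]
    · unfold xD eD
      rw [Pi.smul_apply, Pi.single_eq_same, smul_eq_mul, mul_one]; rfl
    · intro b hb hne
      have hb' : b < 8 := Finset.mem_range.1 hb
      unfold eD
      rw [Pi.smul_apply, Pi.single_apply, if_neg, smul_zero]
      rw [s8_inj a ha b hb']
      exact fun h => hne h.symm
    · intro h; exact absurd (Finset.mem_range.2 ha) h

local notation "Q4" => qPlus 4 F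
local notation "B4" => QuadraticMap.polar (qPlus 4 F)

theorem dlD {y : OGrp Q4} (H : Rel mD4 chevD4 24 Q4 (eD F) y 1) {β : LinearMap.BilinForm F (Fin 4 ⊕ Fin 4 → F)} {c : F}
    (hβ : ∀ v, β v v = c * Q4 v) : ∃ m : F, m + m = 0 ∧ ∀ v w, pb β y.1 v w - β v w = m * B4 v w := by
  have hn : chevD4.nroots = 24 := rfl
  have hl : chevD4.rank = 4 := rfl
  have hd : mD4.d = 8 := rfl
  have s1 : ∀ (β : LinearMap.BilinForm F (Fin 4 ⊕ Fin 4 → F)) (c : F), sym mD4 (eD F) β c 7 = β (eD F 0) (eD F 7) := fun β c => by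
    exact sym_ab (M := mD4) (a := 0) (b := 7) (by rw [hd]; omega) (by rw [hd]; omega)
  have s2 : ∀ (β : LinearMap.BilinForm F (Fin 4 ⊕ Fin 4 → F)) (c : F), sym mD4 (eD F) β c 14 = β (eD F 1) (eD F 6) := fun β c => by
    exact sym_ab (M := mD4) (a := 1) (b := 6) (by rw [hd]; omega) (by rw [hd]; omega)
  have s3 : ∀ (β : LinearMap.BilinForm F (Fin 4 ⊕ Fin 4 → F)) (c : F), sym mD4 (eD F) β c 21 = β (eD F 2) (eD F 5) := fun β c => by
    exact sym_ab (M := mD4) (a := 2) (b := 5) (by rw [hd]; omega) (by rw [hd]; omega)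
  have s4 : ∀ (β : LinearMap.BilinForm F (Fin 4 ⊕ Fin 4 → F)) (c : F), sym mD4 (eD F) β c 28 = β (eD F 3) (eD F 4) := fun β c => by
    exact sym_ab (M := mD4) (a := 3) (b := 4) (by rw [hd]; omega) (by rw [hd]; omega)
  have s5 : ∀ (β : LinearMap.BilinForm F (Fin 4 ⊕ Fin 4 → F)) (c : F), sym mD4 (eD F) β c 64 = c := fun β c => by
    exact sym_c (M := mD4)
  have h1 := pv_eq hn hl H hβ (k := 24) (by omega)
  have h2 := pv_eq hn hl H hβ (k := 25) (by omega)
  have h3 := pv_eq hn hl H hβ (k := 26) (by omega)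
  have h4 := pv_eq hn hl H hβ (k := 27) (by omega)
  rw [cart_val (by omega), cart_val (by omega)] at h1 h2 h3 h4
  have g1 : mD4.hl.getD (24 - 24) [] = [(7, 1), (14, -1)] := rfl
  have g2 : mD4.hl.getD (25 - 24) [] = [(14, 1), (21, -1)] := rfl
  have g3 : mD4.hl.getD (26 - 24) [] = [(21, 1), (28, -1)] := rfl
  have g4 : mD4.hl.getD (27 - 24) [] = [(21, 1), (28, 1), (64, -1)] := rfl
  rw [g1] at h1; rw [g2] at h2; rw [g3] at h3; rw [g4] at h4
  simp only [List.map_cons, List.map_nil, List.sum_cons, List.sum_nil, s1, s2, s3, s4, s5] at h1 h2 h3 h4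
  push_cast at h1 h2 h3 h4
  obtain ⟨m, hm⟩ : ∃ m, m = dl (eD F) β y 0 7 := ⟨_, rfl⟩
  have d1 : dl (eD F) β y 1 6 = m := by rw [hm]; unfold dl; linear_combination -h1
  have d2 : dl (eD F) β y 2 5 = m := by rw [← d1]; unfold dl; linear_combination -h2
  have d3 : dl (eD F) β y 3 4 = m := by rw [← d2]; unfold dl; linear_combination -h3
  have d4 : m + m = 0 := by
    have : dl (eD F) β y 2 5 + dl (eD F) β y 3 4 = 0 := by unfold dl; linear_combination h4
    rwa [d2, d3] at this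
  have hneg : -m = m := by linear_combination -d4
  refine ⟨m, d4, ?_⟩
  have hfr : ∀ a < 8, ∀ b < 8, dl (eD F) β y a b = m * B4 (eD F a) (eD F b) := by
    intro a ha b hb
    by_cases hab : a = b
    · subst hab
      rw [dl_self hβ, frD.pol a ha a ha]
      unfold Md.bb
      rw [hd, if_neg (by omega)]; simp
    · by_cases h7 : a + b = 7
      · rw [frD.pol a ha b hb]
        unfold Md.bb
        rw [hd, if_pos (by omega), if_neg hab, Int.cast_one, mul_one]
        have : (a = 0 ∧ b = 7) ∨ (a = 1 ∧ b = 6) ∨ (a = 2 ∧ b = 5) ∨ (a = 3 ∧ b = 4) ∨ (a = 7 ∧ b = 0) ∨ (a = 6 ∧ b = 1) ∨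
            (a = 5 ∧ b = 2) ∨ (a = 4 ∧ b = 3) := by omega
        rcases this with ⟨rfl, rfl⟩ | ⟨rfl, rfl⟩ | ⟨rfl, rfl⟩ | ⟨rfl, rfl⟩ | ⟨rfl, rfl⟩ | ⟨rfl, rfl⟩ | ⟨rfl, rfl⟩ | ⟨rfl, rfl⟩
        · exact hm.symm
        · exact d1
        · exact d2
        · exact d3
        · rw [dl_anti hβ, ← hm, hneg]
        · rw [dl_anti hβ, d1, hneg]
        · rw [dl_anti hβ, d2, hneg]
        · rw [dl_anti hβ, d3, hneg]
      · rw [dl_root hn hl chkR_mD4 chkP_mD4 H hβ ha hb hab (by rw [hd]; omega), frD.pol a ha b hb]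
        unfold Md.bb
        rw [hd, if_neg (by omega)]; simp
  intro v w
  have h5 := frame_ext cfD (β := pb β y.1 - β) (β' := m • QuadraticMap.polarBilin Q4) (by
    intro a ha b hb
    exact hfr a ha b hb) v w
  exact h5

theorem kerD {y : OGrp Q4} (H : Rel mD4 chevD4 24 Q4 (eD F) y 1) {r : ℕ} (hr : r < 24) (t : F) :
    (xe mD4 Q4 (eD F) r t).1 * y = y * (xe mD4 Q4 (eD F) r t).1 := by
  have hB := nondeg_qPlus (F := F) 4
  obtain ⟨ha, hb, hne, h1, h2, h3⟩ := rchk chkR_mD4 hr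
  have hd : mD4.d = 8 := rfl
  obtain ⟨a, hea⟩ : ∃ a, a = eD F (mD4.A r) := ⟨_, rfl⟩
  obtain ⟨b, heb⟩ : ∃ b, b = eD F (mD4.B r) := ⟨_, rfl⟩
  have hQa : Q4 a = 0 := by rw [hea]; exact fr_sing frD ha h2
  have hQb : Q4 b = 0 := by rw [heb]; exact fr_sing frD hb (by rw [hd]; omega)
  have haa : B4 a a = 0 := by rw [pself, hQa, mul_zero]
  have hbb : B4 b b = 0 := by rw [pself, hQb, mul_zero]
  have hab : B4 a b = 0 := by rw [hea, heb]; exact fr_orth frD ha hb h1
  obtain ⟨m, hm, hmd⟩ := dlD H (β := wdg (pf Q4 a) (pf Q4 b)) (c := 0) (fun v => wdg_self _ _ v)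
  have h4 := le_diff hB y a b m hmd
  have h5 : ∀ w : Fin 4 ⊕ Fin 4 → F, m • m • w = 0 := by
    intro w
    have e1 : le Q4 ((y⁻¹ : OGrp Q4).1 a) ((y⁻¹ : OGrp Q4).1 b) (le Q4 ((y⁻¹ : OGrp Q4).1 a) ((y⁻¹ : OGrp Q4).1 b) w) = 0 := by
      apply le_sq
      · rw [og_polar, haa]
      · rw [og_polar, hbb]
      · rw [og_polar, hab]
    rw [h4, h4, le_add, le_sq haa hbb hab, le_smul, smul_add, zero_add, ← add_assoc, ← add_smul, hm, zero_smul, zero_add] at e1
    exact e1
  have h6 : m = 0 := by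
    have h7 := congrFun (h5 (eD F 0)) (s8 0)
    unfold eD at h7
    rw [Pi.smul_apply, Pi.smul_apply, Pi.single_eq_same, smul_eq_mul, smul_eq_mul, mul_one] at h7
    exact mul_self_eq_zero.1 h7
  rw [h6] at h4
  have h8 : ∀ w : Fin 4 ⊕ Fin 4 → F, (xe mD4 Q4 (eD F) r t).1.1 w = w + (t * ((mD4.S r : ℤ) : F)) • le Q4 a b w := by
    intro w
    have hP : B4 a ((-(t * ((mD4.S r : ℤ) : F))) • b) = 0 := by rw [QuadraticMap.polar_smul_right, hab, smul_zero]
    unfold xe
    rw [← hea, ← heb, CfsgLib.AutO27.E_apply hQa hP, QuadraticMap.map_smul, hQb, QuadraticMap.polar_smul_left]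
    unfold le
    simp only [smul_eq_mul, mul_zero, zero_mul, zero_smul, sub_zero]
    module
  apply og_ext
  intro w
  rw [og_mul_apply, og_mul_apply, h8, h8, map_add, map_smul, le_map, h4, zero_smul, add_zero]

theorem hmidD (v : Fin 4 ⊕ Fin 4 → F) (_ : Q4 v = 0) (h : ∀ b < mD4.d, b + b ≠ mD4.d - 1 → b ≠ mD4.d - 1 → xD F b v = 0) :
    ∀ b < mD4.d, b ≠ mD4.d - 1 → xD F b v = 0 := by
  intro b hb hb1
  have hd : mD4.d = 8 := rfl
  exact h b hb (by rw [hd]; omega) hb1

theorem isoD : Nonempty (↥(chevD4.group F) ≃* Cfsg.POmega F (Cfsg.quadFormPlus 4 F)) := by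
  have hd : mD4.d = 8 := rfl
  have hG : G0 mD4 24 Q4 (eD F) = EG Q4 := G0_eq chkR_mD4 chkP_mD4 (by rw [hd]; omega) frD cfD hmidD
  obtain ⟨h1, h2⟩ := good4_D4.simple_of_perf (F := F) perf_D4 (by decide)
  obtain ⟨i1⟩ := iso_G0 (F := F) (Q := Q4) (e := eD F) good3_D4 chkR_mD4 chkL_mD4 chk_mD4 (by rw [hd]; omega) frD chkN_mD4 cfD
    (fun y _ H r hr t => kerD H hr t) h1 h2
  have i2 : Cfsg.Omega F ⇑Q4 ≃* EG Q4 := (omegaIso Q4).trans (MulEquiv.subgroupCongr ((hs_qPlus (by omega)).commutator_eq (nondeg_qPlus 4)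
    (Or.inr (by rw [Module.finrank_fintype_fun_eq_card]; decide))))
  have i3 : Cfsg.Omega F ⇑Q4 ≃* G0 mD4 24 Q4 (eD F) := i2.trans (MulEquiv.subgroupCongr hG.symm)
  have i4 := quotCenterCongr i3
  rw [coe_qPlus] at i4
  exact ⟨(i4.trans i1).symm⟩

end D4

end Cfsg.Agent.H22.Cv
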