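import Cfsg.Agent.LibH22Cv5

set_option autoImplicit false

/-! B2: the frame, the kernel, the commutator subgroup, the isomorphism with POmega5. -/

namespace Cfsg.Agent.H22.Cv

open CfsgLib.Chev Cfsg.Lie Matrix
open scoped commutatorElement

section Kill

variable {F V : Type*} [Field F] [AddCommGroup V] [Module F V] {M : Md} {Q : QuadraticForm F V} {e : ℕ → V}
variable {x : ℕ → Module.Dual F V} {β₀ : LinearMap.BilinForm F V}

local notation "B" => QuadraticMap.polar Q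

theorem kill (hf : Fr M Q e) (hx : Cf M Q e x β₀) {a : ℕ} (ha : a < M.d) (h3 : a + a ≠ M.d - 1) (v : V) (hv : Q v = 0)
    (h : x (M.d - 1 - a) v ≠ 0) : ∃ y : EG Q, y.1.1 v = x (M.d - 1 - a) v • e (M.d - 1 - a) ∧ y.1.1 (e a) = e a ∧
      ∀ u, B (e a) u = 0 → B (e (M.d - 1 - a)) u = 0 → B v u = 0 → y.1.1 u = u := by
  obtain ⟨a', ha'⟩ : ∃ a', a' = M.d - 1 - a := ⟨_, rfl⟩
  rw [← ha'] at h ⊢
  have had : a' < M.d := by omega
  have hq := fr_sing hf ha h3
  have hq' := fr_sing hf had (by omega)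
  obtain ⟨w, hw⟩ : ∃ w, w = (-(x a' v)⁻¹) • (v - x a v • e a - x a' v • e a') := ⟨_, rfl⟩
  have hxa : ∀ v, B (e a) v = x a' v := by
    intro v
    rw [pol_x hf hx ha h3, ha']
  have hxa' : ∀ v, B (e a') v = x a v := by
    intro v
    rw [pol_x hf hx had (by omega)]
    congr 2; omega
  have hBw : B (e a) w = 0 := by
    rw [hxa, hw, map_smul, map_sub, map_sub, map_smul, map_smul, hx.xe _ had _ had, if_pos rfl, hx.xe _ had _ ha, if_neg (by omega)]
    simp
  have haa : B (e a) (e a) = 0 := by rw [pself, hq, mul_zero]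
  refine ⟨CfsgLib.AutO27.E Q (e a) w, ?_, ?_, ?_⟩
  · obtain ⟨c, hcc⟩ : ∃ c : F, (CfsgLib.AutO27.E Q (e a) w).1.1 v = x a' v • e a' + c • e a := by
      refine ⟨x a v - B w v - Q w * x a' v, ?_⟩
      rw [CfsgLib.AutO27.E_apply hq hBw, hxa]
      conv_lhs => rw [show x a' v • w = -(v - x a v • e a - x a' v • e a') by
        rw [hw, smul_smul, mul_neg, mul_inv_cancel₀ h, neg_one_smul]]
      module
    have h2 : Q (x a' v • e a' + c • e a) = 0 := by
      rw [← hcc, CfsgLib.AutO27.g_Q, hv]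
    rw [qadd, QuadraticMap.map_smul, QuadraticMap.map_smul, hq, hq',
      QuadraticMap.polar_smul_left, QuadraticMap.polar_smul_right, fr_dual hf had ha (by omega) (by omega)] at h2
    have h4 : c = 0 := by
      simp only [smul_zero, zero_add, smul_eq_mul, mul_one, mul_zero] at h2
      exact (mul_eq_zero.1 h2).resolve_left h
    rw [hcc, h4, zero_smul, add_zero]
  · rw [CfsgLib.AutO27.E_apply hq hBw, haa, QuadraticMap.polar_comm, hBw]
    simp
  · intro u h1 h2 h4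
    have h5 : B w u = 0 := by
      rw [hw, QuadraticMap.polar_smul_left, QuadraticMap.polar_sub_left, QuadraticMap.polar_sub_left, QuadraticMap.polar_smul_left,
        QuadraticMap.polar_smul_left, h1, h2, h4]
      simp
    rw [CfsgLib.AutO27.E_apply hq hBw, h1, h5]
    simp

end Kill

section B2

variable {F : Type*} [Field F]

/-- index map -/
def s5 (a : ℕ) : Unit ⊕ (Fin 2 ⊕ Fin 2) := if a = 2 then Sum.inl () else if a < 2 then Sum.inr (Sum.inl (Fin.ofNat 2 a)) else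
  Sum.inr (Sum.inr (Fin.ofNat 2 (4 - a)))

theorem s5_inj : ∀ a < 5, ∀ b < 5, (s5 a = s5 b ↔ a = b) := by decide
theorem s5_surj : ∀ i : Unit ⊕ (Fin 2 ⊕ Fin 2), ∃ a < 5, s5 a = i := by decide

variable (F) in
def eB (a : ℕ) : Unit ⊕ (Fin 2 ⊕ Fin 2) → F := Pi.single (s5 a) 1

variable (F) in
def xB (a : ℕ) : Module.Dual F (Unit ⊕ (Fin 2 ⊕ Fin 2) → F) := LinearMap.proj (s5 a)

variable (F) in
def bB : LinearMap.BilinForm F (Unit ⊕ (Fin 2 ⊕ Fin 2) → F) :=
  LinearMap.mk₂ F (fun v w => v (s5 2) * w (s5 2) + v (s5 4) * w (s5 0) + v (s5 3) * w (s5 1))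
    (by intro a b c; simp only [Pi.add_apply]; ring)
    (by intro c a b; simp only [Pi.smul_apply, smul_eq_mul]; ring)
    (by intro a b c; simp only [Pi.add_apply]; ring)
    (by intro c a b; simp only [Pi.smul_apply, smul_eq_mul]; ring)

theorem bB_apply (v w : Unit ⊕ (Fin 2 ⊕ Fin 2) → F) : bB F v w = v (s5 2) * w (s5 2) + v (s5 4) * w (s5 0) + v (s5 3) * w (s5 1) := rfl

local notation "Q5" => qOdd 2 F
local notation "B5" => QuadraticMap.polar (qOdd 2 F)

theorem q5_apply (v : Unit ⊕ (Fin 2 ⊕ Fin 2) → F) : Q5 v = v (s5 2) * v (s5 2) + v (s5 4) * v (s5 0) + v (s5 3) * v (s5 1) := by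
  rw [coe_qOdd]
  unfold Cfsg.quadFormOdd
  rw [Fin.sum_univ_two]
  have e0 : s5 0 = Sum.inr (Sum.inl 0) := by decide
  have e1 : s5 1 = Sum.inr (Sum.inl 1) := by decide
  have e2 : s5 2 = Sum.inl () := by decide
  have e3 : s5 3 = Sum.inr (Sum.inr 1) := by decide
  have e4 : s5 4 = Sum.inr (Sum.inr 0) := by decide
  rw [e0, e1, e2, e3, e4]
  ring

theorem b5_apply (v w : Unit ⊕ (Fin 2 ⊕ Fin 2) → F) : B5 v w = 2 * (v (s5 2) * w (s5 2)) + v (s5 4) * w (s5 0) + v (s5 3) * w (s5 1) +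
    v (s5 0) * w (s5 4) + v (s5 1) * w (s5 3) := by
  unfold QuadraticMap.polar
  rw [q5_apply, q5_apply, q5_apply]
  simp only [Pi.add_apply]
  ring

theorem eB_apply {a b : ℕ} (ha : a < 5) (hb : b < 5) : eB F a (s5 b) = if a = b then 1 else 0 := by
  unfold eB
  rw [Pi.single_apply, if_congr (s5_inj b hb a ha) rfl rfl]
  simp only [eq_comm]

theorem frB : Fr mB2 Q5 (eB F) where
  pol := by
    intro a ha b hb
    have ha' : a < 5 := ha
    have hb' : b < 5 := hb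
    rw [b5_apply]
    interval_cases a <;> interval_cases b <;> simp [eB_apply, Md.bb, mB2]
  q := by
    intro a ha
    have ha' : a < 5 := ha
    rw [q5_apply]
    interval_cases a <;> simp [eB_apply, Md.qq, mB2]

theorem cfB : Cf mB2 Q5 (eB F) (xB F) (bB F) where
  xe := by
    intro a ha b hb
    have ha' : a < 5 := ha
    have hb' : b < 5 := hb
    unfold xB
    rw [LinearMap.proj_apply, eB_apply hb' ha']
    simp only [eq_comm]
  b0 := by
    intro v
    rw [bB_apply, q5_apply]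
  b1 := by
    intro a ha b hb hab
    have ha' : a < 5 := ha
    have hb' : b < 5 := hb
    rw [bB_apply]
    interval_cases a <;> interval_cases b <;> first | omega | simp [eB_apply]
  sp := by
    intro v
    ext i
    obtain ⟨a, ha, rfl⟩ := s5_surj i
    rw [Finset.sum_apply, Finset.sum_eq_single a]
    · unfold xB eB
      rw [Pi.smul_apply, Pi.single_eq_same, smul_eq_mul, mul_one]; rfl
    · intro b hb hne
      have hb' : b < 5 := Finset.mem_range.1 hb
      rw [Pi.smul_apply, eB_apply hb' ha, if_neg hne, smul_zero]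
    · intro h; exact absurd (Finset.mem_range.2 ha) h

theorem dlB {y : OGrp Q5} (H : Rel mB2 chevB2 8 Q5 (eB F) y 1) {β : LinearMap.BilinForm F (Unit ⊕ (Fin 2 ⊕ Fin 2) → F)} {c : F}
    (hβ : ∀ v, β v v = c * Q5 v) : 2 * dl (eB F) β y 1 3 = 0 ∧ dl (eB F) β y 0 4 = dl (eB F) β y 1 3 := by
  have hn : chevB2.nroots = 8 := rfl
  have hl : chevB2.rank = 2 := rfl
  have hd : mB2.d = 5 := rfl
  have s1 : ∀ (β : LinearMap.BilinForm F (Unit ⊕ (Fin 2 ⊕ Fin 2) → F)) (c : F), sym mB2 (eB F) β c 4 = β (eB F 0) (eB F 4) := fun β c => by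
    exact sym_ab (M := mB2) (a := 0) (b := 4) (by rw [hd]; omega) (by rw [hd]; omega)
  have s2 : ∀ (β : LinearMap.BilinForm F (Unit ⊕ (Fin 2 ⊕ Fin 2) → F)) (c : F), sym mB2 (eB F) β c 8 = β (eB F 1) (eB F 3) := fun β c => by
    exact sym_ab (M := mB2) (a := 1) (b := 3) (by rw [hd]; omega) (by rw [hd]; omega)
  have s5 : ∀ (β : LinearMap.BilinForm F (Unit ⊕ (Fin 2 ⊕ Fin 2) → F)) (c : F), sym mB2 (eB F) β c 25 = c := fun β c => by
    exact sym_c (M := mB2)
  have h1 := pv_eq hn hl H hβ (k := 8) (by omega)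
  have h2 := pv_eq hn hl H hβ (k := 9) (by omega)
  rw [cart_val (by omega), cart_val (by omega)] at h1 h2
  have g1 : mB2.hl.getD (8 - 8) [] = [(8, 2), (25, -1)] := rfl
  have g2 : mB2.hl.getD (9 - 8) [] = [(4, 1), (8, -1)] := rfl
  rw [g1] at h1; rw [g2] at h2
  simp only [List.map_cons, List.map_nil, List.sum_cons, List.sum_nil, s1, s2, s5] at h1 h2
  push_cast at h1 h2
  constructor
  · unfold dl; linear_combination h1
  · unfold dl; linear_combination h2

theorem dlB_zero (h2 : (2 : F) ≠ 0) {y : OGrp Q5} (H : Rel mB2 chevB2 8 Q5 (eB F) y 1)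
    {β : LinearMap.BilinForm F (Unit ⊕ (Fin 2 ⊕ Fin 2) → F)} {c : F}
    (hβ : ∀ v, β v v = c * Q5 v) (v w : Unit ⊕ (Fin 2 ⊕ Fin 2) → F) : pb β y.1 v w - β v w = 0 * B5 v w := by
  have hn : chevB2.nroots = 8 := rfl
  have hl : chevB2.rank = 2 := rfl
  have hd : mB2.d = 5 := rfl
  obtain ⟨h3, h4⟩ := dlB H hβ
  have h5 : dl (eB F) β y 1 3 = 0 := (mul_eq_zero.1 h3).resolve_left h2
  rw [h5] at h4
  have hfr : ∀ a < 5, ∀ b < 5, dl (eB F) β y a b = 0 := by
    intro a ha b hb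
    by_cases hab : a = b
    · subst hab
      exact dl_self hβ y a
    · by_cases h7 : a + b = 4
      · have : (a = 0 ∧ b = 4) ∨ (a = 1 ∧ b = 3) ∨ (a = 3 ∧ b = 1) ∨ (a = 4 ∧ b = 0) := by omega
        rcases this with ⟨rfl, rfl⟩ | ⟨rfl, rfl⟩ | ⟨rfl, rfl⟩ | ⟨rfl, rfl⟩
        · exact h4
        · exact h5
        · rw [dl_anti hβ, h5, neg_zero]
        · rw [dl_anti hβ, h4, neg_zero]
      · exact dl_root hn hl chkR_mB2 chkP_mB2 H hβ ha hb hab (by rw [hd]; omega)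
  have h6 := frame_ext cfB (β := pb β y.1 - β) (β' := 0) (by
    intro a ha b hb
    exact hfr a ha b hb) v w
  rw [zero_mul]
  exact h6

/-- the kernel in characteristic two -/
theorem kerB_two (h2 : (2 : F) = 0) {y : OGrp Q5} (H : Rel mB2 chevB2 8 Q5 (eB F) y 1) : y = 1 := by
  have hn : chevB2.nroots = 8 := rfl
  have hl : chevB2.rank = 2 := rfl
  have hd : mB2.d = 5 := rfl
  have hm : ∀ v, B5 v (eB F 2) = 0 := by
    intro v
    rw [b5_apply, h2]
    simp [eB_apply]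
  have hsp := cfB (F := F).sp
  -- y fixes e 2
  have hy2' : ∀ b < 5, b ≠ 2 → xB F b (y.1 (eB F 2)) = 0 := by
    intro b hb hb2
    have h4 := pol_x (frB (F := F)) cfB (a := 4 - b) (by rw [hd]; omega) (by rw [hd]; omega) (y.1 (eB F 2))
    have e1 : mB2.d - 1 - (4 - b) = b := by rw [hd]; omega
    rw [e1] at h4
    rw [← h4, og_polar_left, hm]
  have hchar : ∀ z w : F, z * z = w * w → z = w := by
    intro z w h
    have h5 : (z - w) * (z - w) = 0 := by linear_combination h - (z * w - w * w) * h2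
    exact sub_eq_zero.1 (mul_self_eq_zero.1 h5)
  have hy2 : y.1 (eB F 2) = eB F 2 := by
    have h5 := og_Q y (eB F 2)
    rw [q5_apply, q5_apply] at h5
    have k0 : (y.1 (eB F 2)) (s5 0) = 0 := hy2' 0 (by omega) (by omega)
    have k1 : (y.1 (eB F 2)) (s5 1) = 0 := hy2' 1 (by omega) (by omega)
    have k3 : (y.1 (eB F 2)) (s5 3) = 0 := hy2' 3 (by omega) (by omega)
    have k4 : (y.1 (eB F 2)) (s5 4) = 0 := hy2' 4 (by omega) (by omega)
    rw [k0, k1, k3, k4] at h5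
    have k2 : (y.1 (eB F 2)) (s5 2) = 1 := by
      apply hchar
      simpa [eB_apply] using h5
    ext i
    obtain ⟨a, ha, rfl⟩ := s5_surj i
    rw [eB_apply (by omega) ha]
    interval_cases a
    · rw [k0]; simp
    · rw [k1]; simp
    · rw [k2]; simp
    · rw [k3]; simp
    · rw [k4]; simp
  -- the other coordinates
  have hco : ∀ a < 5, a ≠ 2 → ∀ v, B5 (eB F a) (y.1 v) = B5 (eB F a) v := by
    intro a ha ha2 v
    have hW : ∀ v, wdg (pf Q5 (eB F a)) (xB F 2) v v = 0 * Q5 v := fun v => wdg_self _ _ v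
    have hda : ∀ b < 5, dl (eB F) (wdg (pf Q5 (eB F a)) (xB F 2)) y b 2 = 0 := by
      intro b hb
      by_cases hb2 : b = 2
      · rw [hb2]; exact dl_self hW y 2
      · exact dl_root hn hl chkR_mB2 chkP_mB2 H hW hb (by rw [hd]; omega) hb2 (by rw [hd]; omega)
    have h6 : ∀ v, pb (wdg (pf Q5 (eB F a)) (xB F 2)) y.1 v (eB F 2) - wdg (pf Q5 (eB F a)) (xB F 2) v (eB F 2) = 0 := by
      intro v
      rw [hsp v]
      have e1 : ∀ (γ : LinearMap.BilinForm F (Unit ⊕ (Fin 2 ⊕ Fin 2) → F)), γ (∑ b ∈ Finset.range mB2.d, xB F b v • eB F b) (eB F 2) =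
          ∑ b ∈ Finset.range mB2.d, xB F b v * γ (eB F b) (eB F 2) := by
        intro γ
        simp only [map_sum, LinearMap.sum_apply, map_smul, LinearMap.smul_apply, smul_eq_mul]
      rw [e1, e1, ← Finset.sum_sub_distrib]
      apply Finset.sum_eq_zero
      intro b hb
      rw [← mul_sub]
      have := hda b (Finset.mem_range.1 hb)
      unfold dl at this
      rw [this, mul_zero]
    have h7 := h6 v
    rw [pb_apply, hy2, wdg_apply, wdg_apply, pf_apply, pf_apply, pf_apply, hm] at h7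
    have e2 : xB F 2 (eB F 2) = 1 := by
      rw [cfB.xe 2 (by rw [hd]; omega) 2 (by rw [hd]; omega), if_pos rfl]
    rw [e2] at h7
    linear_combination h7
  apply og_ext
  intro v
  show y.1 v = v
  have hcb : ∀ b < 5, b ≠ 2 → (y.1 v) (s5 b) = v (s5 b) := by
    intro b hb hb2
    have h8 := hco (4 - b) (by omega) (by omega) v
    rw [pol_x frB cfB (by rw [hd]; omega) (by rw [hd]; omega), pol_x frB cfB (by rw [hd]; omega) (by rw [hd]; omega)] at h8
    have e1 : mB2.d - 1 - (4 - b) = b := by rw [hd]; omega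
    rw [e1] at h8
    exact h8
  have h9 := og_Q y v
  rw [q5_apply, q5_apply, hcb 0 (by omega) (by omega), hcb 1 (by omega) (by omega), hcb 3 (by omega) (by omega), hcb 4 (by omega) (by omega)] at h9
  have h10 : (y.1 v) (s5 2) = v (s5 2) := by
    apply hchar
    linear_combination h9
  ext i
  obtain ⟨a, ha, rfl⟩ := s5_surj i
  by_cases ha2 : a = 2
  · rw [ha2, h10]
  · exact hcb a ha ha2

theorem kerB {y : OGrp Q5} (H : Rel mB2 chevB2 8 Q5 (eB F) y 1) {r : ℕ} (hr : r < 8) (t : F) :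
    (xe mB2 Q5 (eB F) r t).1 * y = y * (xe mB2 Q5 (eB F) r t).1 := by
  by_cases h20 : (2 : F) = 0
  · rw [kerB_two h20 H, mul_one, one_mul]
  have hB := nondeg_qOdd (F := F) 2 h20
  obtain ⟨ha, hb, hne, h1, h2, h3⟩ := rchk chkR_mB2 hr
  have hd : mB2.d = 5 := rfl
  have hS : ((mB2.S r : ℤ) : F) * ((mB2.S r : ℤ) : F) = 1 := by
    rcases h3 with h | h <;> rw [h] <;> simp
  obtain ⟨a, hea⟩ : ∃ a, a = eB F (mB2.A r) := ⟨_, rfl⟩
  obtain ⟨b, heb⟩ : ∃ b, b = eB F (mB2.B r) := ⟨_, rfl⟩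
  have hQa : Q5 a = 0 := by rw [hea]; exact fr_sing frB ha h2
  have haa : B5 a a = 0 := by rw [pself, hQa, mul_zero]
  have hbb : B5 b b = 2 * Q5 b := by rw [pself]
  have hab : B5 a b = 0 := by rw [hea, heb]; exact fr_orth frB ha hb h1
  have hba : B5 b a = 0 := by rw [QuadraticMap.polar_comm, hab]
  have h4 := le_diff hB y a b 0 (dlB_zero h20 H (β := wdg (pf Q5 a) (pf Q5 b)) (c := 0) (fun v => wdg_self _ _ v))
  have h5 : ∀ w, le Q5 a b (y.1 w) = y.1 (le Q5 a b w) := by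
    intro w
    rw [le_map, h4, zero_smul, add_zero]
  have h6 : ∀ w, le Q5 a b (le Q5 a b w) = (-(2 * (Q5 b * B5 a w))) • a := by
    intro w
    unfold le
    simp only [QuadraticMap.polar_sub_right, QuadraticMap.polar_smul_right, haa, hbb, hab, hba, smul_eq_mul, mul_zero, sub_zero, zero_sub]
    module
  have h7 : ∀ w, y.1 ((Q5 b * B5 a w) • a) = (Q5 b * B5 a (y.1 w)) • a := by
    intro w
    have e1 : y.1 (le Q5 a b (le Q5 a b w)) = le Q5 a b (le Q5 a b (y.1 w)) := by rw [h5, h5]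
    rw [h6, h6] at e1
    have e2 : ∀ (c : F), (-(2 * c)) • a = (-(2 : F)) • (c • a) := by intro c; module
    rw [e2, e2, map_smul] at e1
    exact smul_right_injective _ (neg_ne_zero.2 h20) e1
  have h8 : ∀ w : Unit ⊕ (Fin 2 ⊕ Fin 2) → F, (xe mB2 Q5 (eB F) r t).1.1 w = w + (t * ((mB2.S r : ℤ) : F)) • le Q5 a b w -
      (t * t) • ((Q5 b * B5 a w) • a) := by
    intro w
    have hP : B5 a ((-(t * ((mB2.S r : ℤ) : F))) • b) = 0 := by rw [QuadraticMap.polar_smul_right, hab, smul_zero]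
    unfold xe
    rw [← hea, ← heb, CfsgLib.AutO27.E_apply hQa hP, QuadraticMap.map_smul, QuadraticMap.polar_smul_left]
    unfold le
    have e3 : (-(t * ((mB2.S r : ℤ) : F))) * (-(t * ((mB2.S r : ℤ) : F))) * Q5 b * B5 a w = t * t * (Q5 b * B5 a w) := by
      linear_combination t * t * Q5 b * B5 a w * hS
    simp only [smul_eq_mul]
    rw [e3]
    module
  apply og_ext
  intro w
  rw [og_mul_apply, og_mul_apply, h8, h8, map_sub, map_add, map_smul, map_smul, h5, h7]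

theorem hmidB (v : Unit ⊕ (Fin 2 ⊕ Fin 2) → F) (hv : Q5 v = 0) (h : ∀ b < mB2.d, b + b ≠ mB2.d - 1 → b ≠ mB2.d - 1 → xB F b v = 0) :
    ∀ b < mB2.d, b ≠ mB2.d - 1 → xB F b v = 0 := by
  intro b hb hb1
  have hd : mB2.d = 5 := rfl
  by_cases hb2 : b + b = mB2.d - 1
  · have k0 : v (s5 0) = 0 := h 0 (by rw [hd]; omega) (by rw [hd]; omega) (by rw [hd]; omega)
    have k1 : v (s5 1) = 0 := h 1 (by rw [hd]; omega) (by rw [hd]; omega) (by rw [hd]; omega)
    rw [q5_apply, k0, k1, mul_zero, mul_zero, add_zero, add_zero] at hv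
    have hb3 : b = 2 := by rw [hd] at hb2; omega
    rw [hb3]
    exact mul_self_eq_zero.1 hv
  · exact h b hb hb2 hb1

/-- diagonal linear equivalence -/
def dg {ι : Type} (c : ι → Fˣ) : (ι → F) ≃ₗ[F] (ι → F) where
  toFun v := fun i => (c i : F) * v i
  map_add' v w := by ext i; simp [mul_add]
  map_smul' a v := by ext i; simp [mul_left_comm]
  invFun v := fun i => ((c i)⁻¹ : Fˣ) * v i
  left_inv v := by ext i; simp
  right_inv v := by ext i; simp

theorem dg_apply {ι : Type} (c : ι → Fˣ) (v : ι → F) (i : ι) : dg c v i = (c i : F) * v i := rfl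

/-- torus element scaling `e a` -/
def cT (a : ℕ) (s : Fˣ) : Unit ⊕ (Fin 2 ⊕ Fin 2) → Fˣ := fun i => if i = s5 a then s else if i = s5 (4 - a) then s⁻¹ else 1

theorem cT_val {a b : ℕ} (ha : a < 5) (hb : b < 5) (s : Fˣ) : cT a s (s5 b) = if b = a then s else if b = 4 - a then s⁻¹ else 1 := by
  unfold cT
  rw [if_congr (s5_inj b hb a ha) rfl rfl, if_congr (s5_inj b hb (4 - a) (by omega)) rfl rfl]

theorem dg_mem {a : ℕ} (ha : a < 5) (ha2 : a ≠ 2) (s : Fˣ) : dg (cT a s) ∈ OGrp Q5 := by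
  rw [mem_OGrp]
  intro v
  rw [q5_apply, q5_apply]
  simp only [dg_apply]
  rw [cT_val ha (by omega), cT_val ha (by omega), cT_val ha (by omega), cT_val ha (by omega), cT_val ha (by omega)]
  have hs : (s : F) * ((s⁻¹ : Fˣ) : F) = 1 := by rw [← Units.val_mul, mul_inv_cancel, Units.val_one]
  interval_cases a
  · simp only [if_true, if_neg (show ¬ (2 = 0) by omega), if_neg (show ¬ (4 = 0) by omega), if_neg (show ¬ (3 = 0) by omega),
      if_neg (show ¬ (1 = 0) by omega), if_neg (show ¬ (2 = 4 - 0) by omega), if_neg (show ¬ (3 = 4 - 0) by omega), if_neg (show ¬ (1 = 4 - 0) by omega),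
      if_pos (show 4 = 4 - 0 by omega), Units.val_one]
    linear_combination v (s5 4) * v (s5 0) * hs
  · simp only [if_true, if_neg (show ¬ (2 = 1) by omega), if_neg (show ¬ (4 = 1) by omega), if_neg (show ¬ (3 = 1) by omega),
      if_neg (show ¬ (0 = 1) by omega), if_neg (show ¬ (2 = 4 - 1) by omega), if_neg (show ¬ (4 = 4 - 1) by omega), if_neg (show ¬ (0 = 4 - 1) by omega),
      if_pos (show 3 = 4 - 1 by omega), Units.val_one]
    linear_combination v (s5 3) * v (s5 1) * hs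
  · exact absurd rfl ha2
  · simp only [if_true, if_neg (show ¬ (2 = 3) by omega), if_neg (show ¬ (4 = 3) by omega), if_neg (show ¬ (1 = 3) by omega),
      if_neg (show ¬ (0 = 3) by omega), if_neg (show ¬ (2 = 4 - 3) by omega), if_neg (show ¬ (4 = 4 - 3) by omega), if_neg (show ¬ (0 = 4 - 3) by omega),
      if_pos (show 1 = 4 - 3 by omega), Units.val_one]
    linear_combination v (s5 3) * v (s5 1) * hs
  · simp only [if_true, if_neg (show ¬ (2 = 4) by omega), if_neg (show ¬ (1 = 4) by omega), if_neg (show ¬ (3 = 4) by omega),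
      if_neg (show ¬ (0 = 4) by omega), if_neg (show ¬ (2 = 4 - 4) by omega), if_neg (show ¬ (3 = 4 - 4) by omega), if_neg (show ¬ (1 = 4 - 4) by omega),
      if_pos (show 0 = 4 - 4 by omega), Units.val_one]
    linear_combination v (s5 4) * v (s5 0) * hs

theorem dg_e {a b : ℕ} (ha : a < 5) (hb : b < 5) (s : Fˣ) : dg (cT a s) (eB F b) = ((cT a s (s5 b) : Fˣ) : F) • eB F b := by
  ext i
  obtain ⟨c, hc, rfl⟩ := s5_surj i
  rw [dg_apply, Pi.smul_apply, smul_eq_mul, eB_apply hb hc]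
  split_ifs with h
  · rw [h]
  · simp

/-- root elements are commutators -/
theorem xe_comm (hF : ∃ a : F, a ≠ 0 ∧ a ≠ 1) {r : ℕ} (hr : r < 8) (t : F) : (xe mB2 Q5 (eB F) r t).1 ∈ commutator (OGrp Q5) := by
  obtain ⟨s, hs0, hs1⟩ := hF
  obtain ⟨ha, hb, hne, h1, h2, h3⟩ := rchk chkR_mB2 hr
  have hd : mB2.d = 5 := rfl
  rw [hd] at ha hb h1 h2
  obtain ⟨a, hea⟩ : ∃ a, a = mB2.A r := ⟨_, rfl⟩
  obtain ⟨b, heb⟩ : ∃ b, b = mB2.B r := ⟨_, rfl⟩
  rw [← hea] at ha hne h1 h2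
  rw [← heb] at hb hne h1
  have hQa := fr_sing (frB (F := F)) (a := a) (by rw [hd]; omega) (by rw [hd]; omega)
  have hab := fr_orth (frB (F := F)) (a := a) (b := b) (by rw [hd]; omega) (by rw [hd]; omega) (by rw [hd]; omega)
  obtain ⟨h, hh⟩ : ∃ h : OGrp Q5, h = ⟨dg (cT a (Units.mk0 s hs0)), dg_mem ha (by omega) _⟩ := ⟨_, rfl⟩
  have hha : h.1 (eB F a) = s • eB F a := by
    rw [hh]
    show dg _ _ = _
    rw [dg_e ha ha, cT_val ha ha, if_pos rfl, Units.val_mk0]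
  have hhb : h.1 (eB F b) = eB F b := by
    rw [hh]
    show dg _ _ = _
    rw [dg_e ha hb, cT_val ha hb, if_neg (Ne.symm hne), if_neg (by omega), Units.val_one, one_smul]
  have hP : ∀ c : F, B5 (eB F a) (c • eB F b) = 0 := by intro c; rw [QuadraticMap.polar_smul_right, hab, smul_zero]
  have hP' : ∀ c : F, B5 (s • eB F a) (c • eB F b) = 0 := by intro c; rw [QuadraticMap.polar_smul_left, hP, smul_zero]
  have hQs : Q5 (s • eB F a) = 0 := by rw [QuadraticMap.map_smul, hQa, smul_zero]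
  have hs : s - 1 ≠ 0 := sub_ne_zero.2 hs1
  obtain ⟨c, hc⟩ : ∃ c : F, (s - 1) * c = -(t * ((mB2.S r : ℤ) : F)) := ⟨(s - 1)⁻¹ * -(t * ((mB2.S r : ℤ) : F)), by
    rw [← mul_assoc, mul_inv_cancel₀ hs, one_mul]⟩
  have h4 : h * (CfsgLib.AutO27.E Q5 (eB F a) (c • eB F b)).1 * h⁻¹ = (CfsgLib.AutO27.E Q5 (eB F a) ((s * c) • eB F b)).1 := by
    rw [CfsgLib.AutO27.E_def hQa (hP c)]
    show h * oEich Q5 (eB F a) (c • eB F b) hQa (hP c) * h⁻¹ = _
    rw [conj_oEich h _ _ (s • eB F a) (c • eB F b) hQa (hP c) hQs (hP' c) hha (by rw [map_smul, hhb])]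
    have e1 := CfsgLib.AutO27.E_smul_left (Q := Q5) hQa (hP c) s
    rw [CfsgLib.AutO27.E_def hQs (hP' c)] at e1
    rw [smul_smul] at e1
    rw [← e1]
  have h5 : (xe mB2 Q5 (eB F) r t).1 = ⁅h, (CfsgLib.AutO27.E Q5 (eB F a) (c • eB F b)).1⁆ := by
    rw [commutatorElement_def, h4]
    have e2 : ((CfsgLib.AutO27.E Q5 (eB F a) (c • eB F b)).1)⁻¹ = (CfsgLib.AutO27.E Q5 (eB F a) (-(c • eB F b))).1 := by
      rw [← CfsgLib.AutO27.E_inv hQa (hP c)]; rfl
    rw [e2]
    have e3 := CfsgLib.AutO27.E_mul (Q := Q5) hQa (hP (s * c)) (w' := -(c • eB F b)) (by rw [← neg_smul]; exact hP _)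
    have e4 := congrArg Subtype.val e3
    have e5 : (CfsgLib.AutO27.E Q5 (eB F a) ((s * c) • eB F b)).1 * (CfsgLib.AutO27.E Q5 (eB F a) (-(c • eB F b))).1 =
        (CfsgLib.AutO27.E Q5 (eB F a) ((s * c) • eB F b + -(c • eB F b))).1 := e4
    rw [e5]
    unfold xe
    rw [← hea, ← heb, ← hc]
    congr 2
    module
  rw [h5]
  exact Subgroup.commutator_mem_commutator (Subgroup.mem_top _) (Subgroup.mem_top _)

theorem G0B_eq : G0 mB2 8 Q5 (eB F) = EG Q5 := by
  have hd : mB2.d = 5 := rfl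
  exact G0_eq chkR_mB2 chkP_mB2 (by rw [hd]; omega) frB cfB hmidB

/-- diagonal elements -/
def DgP (g : OGrp Q5) : Prop := ∀ a < 5, ∃ c : F, g.1 (eB F a) = c • eB F a

theorem DgP.comm {g g' : OGrp Q5} (h : DgP g) (h' : DgP g') : g * g' = g' * g := by
  apply og_ext
  intro v
  have hsp := cfB (F := F).sp v
  rw [hsp, og_mul_apply, og_mul_apply]
  simp only [map_sum, map_smul]
  apply Finset.sum_congr rfl
  intro a ha
  obtain ⟨c, hc⟩ := h a (Finset.mem_range.1 ha)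
  obtain ⟨c', hc'⟩ := h' a (Finset.mem_range.1 ha)
  rw [hc, hc', map_smul, map_smul, hc, hc', smul_comm c c']

theorem eB_ne (a : ℕ) : eB F a ≠ 0 := by
  intro h
  have := congrFun h (s5 a)
  unfold eB at this
  rw [Pi.single_eq_same] at this
  exact one_ne_zero this

theorem to_diag (g : OGrp Q5) : ∃ y : EG Q5, DgP (y.1 * g) := by
  have hd : mB2.d = 5 := rfl
  have hq : ∀ a < 5, a ≠ 2 → Q5 (eB F a) = 0 := fun a ha h => fr_sing (frB (F := F)) (by rw [hd]; omega) (by rw [hd]; omega)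
  have ho : ∀ a < 5, ∀ b < 5, a + b ≠ 4 → B5 (eB F a) (eB F b) = 0 := fun a ha b hb h =>
    fr_orth (frB (F := F)) (by rw [hd]; omega) (by rw [hd]; omega) (by rw [hd]; omega)
  have hdu : ∀ a < 5, ∀ b < 5, a + b = 4 → a ≠ b → B5 (eB F a) (eB F b) = 1 := fun a ha b hb h h' =>
    fr_dual (frB (F := F)) (by rw [hd]; omega) (by rw [hd]; omega) (by rw [hd]; omega) h'
  have hxp : ∀ a < 5, a ≠ 2 → ∀ v, B5 (eB F a) v = xB F (4 - a) v := fun a ha h v => by
    rw [pol_x frB cfB (by rw [hd]; omega) (by rw [hd]; omega), hd]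
  have hkill : ∀ a < 5, a ≠ 2 → ∀ v, Q5 v = 0 → xB F (4 - a) v ≠ 0 → ∃ y : EG Q5, y.1.1 v = xB F (4 - a) v • eB F (4 - a) ∧
      y.1.1 (eB F a) = eB F a ∧ ∀ u, B5 (eB F a) u = 0 → B5 (eB F (4 - a)) u = 0 → B5 v u = 0 → y.1.1 u = u := by
    intro a ha h v hv hne
    have := kill (frB (F := F)) cfB (a := a) (by rw [hd]; omega) (by rw [hd]; omega) v hv (by rw [hd]; exact hne)
    rw [hd] at this
    exact this
  -- step 1
  obtain ⟨y1, -, c0, hc0, hy1⟩ := move (n := 8) (l := 2) chkR_mB2 chkP_mB2 (by rw [hd]; omega) (frB (F := F)) cfB hmidB (g.1 (eB F 0))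
    (by rw [og_Q, hq 0 (by omega) (by omega)]) (by
      intro h
      exact eB_ne (F := F) 0 (by simpa using h))
  obtain ⟨g1, hg1⟩ : ∃ g1 : OGrp Q5, g1 = y1.1 * g := ⟨_, rfl⟩
  have a0 : g1.1 (eB F 0) = c0 • eB F 0 := by rw [hg1, og_mul_apply, hy1]
  -- step 2
  have b1 : c0 * xB F 4 (g1.1 (eB F 4)) = 1 := by
    have h := og_polar g1 (eB F 0) (eB F 4)
    rw [a0, QuadraticMap.polar_smul_left, hdu 0 (by omega) 4 (by omega) (by omega) (by omega), hxp 0 (by omega) (by omega)] at h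
    exact h
  have b2 : xB F 4 (g1.1 (eB F 4)) ≠ 0 := right_ne_zero_of_mul_eq_one b1
  obtain ⟨y2, h21, h22, -⟩ := hkill 0 (by omega) (by omega) (g1.1 (eB F 4)) (by rw [og_Q, hq 4 (by omega) (by omega)]) b2
  obtain ⟨g2, hg2⟩ : ∃ g2 : OGrp Q5, g2 = y2.1 * g1 := ⟨_, rfl⟩
  obtain ⟨c4, hc4⟩ : ∃ c4, c4 = xB F 4 (g1.1 (eB F 4)) := ⟨_, rfl⟩
  have a20 : g2.1 (eB F 0) = c0 • eB F 0 := by rw [hg2, og_mul_apply, a0, map_smul, h22]
  have a24 : g2.1 (eB F 4) = c4 • eB F 4 := by rw [hg2, og_mul_apply, hc4]; exact h21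
  rw [← hc4] at b2
  -- orthogonality
  have orth : ∀ (g2 : OGrp Q5), g2.1 (eB F 0) = c0 • eB F 0 → g2.1 (eB F 4) = c4 • eB F 4 → ∀ b < 5, b ≠ 0 → b ≠ 4 →
      B5 (g2.1 (eB F b)) (eB F 0) = 0 ∧ B5 (g2.1 (eB F b)) (eB F 4) = 0 := by
    intro g2 a20 a24 b hb hb0 hb4
    constructor
    · have h := og_polar g2 (eB F b) (eB F 0)
      rw [a20, QuadraticMap.polar_smul_right, ho b hb 0 (by omega) (by omega), smul_eq_mul] at h
      exact (mul_eq_zero.1 h).resolve_left hc0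
    · have h := og_polar g2 (eB F b) (eB F 4)
      rw [a24, QuadraticMap.polar_smul_right, ho b hb 4 (by omega) (by omega), smul_eq_mul] at h
      exact (mul_eq_zero.1 h).resolve_left b2
  have hbeta : ∀ u v, B5 u v = B5 v u := fun u v => QuadraticMap.polar_comm _ _ _
  -- step 3: first make the coordinate nonzero
  have st3 : ∃ y3 : EG Q5, y3.1.1 (eB F 0) = eB F 0 ∧ y3.1.1 (eB F 4) = eB F 4 ∧ xB F 1 (y3.1.1 (g2.1 (eB F 1))) ≠ 0 := by
    by_cases h1 : xB F 1 (g2.1 (eB F 1)) = 0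
    · have hor := orth g2 a20 a24 1 (by omega) (by omega) (by omega)
      have x0 : (g2.1 (eB F 1)) (s5 0) = 0 := by
        have := hxp 4 (by omega) (by omega) (g2.1 (eB F 1))
        rw [hbeta, hor.2] at this
        exact this.symm
      have x4 : (g2.1 (eB F 1)) (s5 4) = 0 := by
        have := hxp 0 (by omega) (by omega) (g2.1 (eB F 1))
        rw [hbeta, hor.1] at this
        exact this.symm
      have x1 : (g2.1 (eB F 1)) (s5 1) = 0 := h1
      have hQ : Q5 (g2.1 (eB F 1)) = 0 := by rw [og_Q, hq 1 (by omega) (by omega)]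
      have x2 : (g2.1 (eB F 1)) (s5 2) = 0 := by
        rw [q5_apply, x0, x1, mul_zero, mul_zero, add_zero, add_zero] at hQ
        exact mul_self_eq_zero.1 hQ
      have x3 : (g2.1 (eB F 1)) (s5 3) ≠ 0 := by
        intro x3
        have : g2.1 (eB F 1) = 0 := by
          ext i
          obtain ⟨a, ha, rfl⟩ := s5_surj i
          rw [Pi.zero_apply]
          interval_cases a <;> assumption
        exact eB_ne (F := F) 1 (by simpa using this)
      have hP : B5 (eB F 1) (eB F 2) = 0 := ho 1 (by omega) 2 (by omega) (by omega)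
      have hQ1 := hq 1 (by omega) (by omega)
      refine ⟨CfsgLib.AutO27.E Q5 (eB F 1) (eB F 2), ?_, ?_, ?_⟩
      · rw [CfsgLib.AutO27.E_apply hQ1 hP, ho 1 (by omega) 0 (by omega) (by omega), ho 2 (by omega) 0 (by omega) (by omega)]; simp
      · rw [CfsgLib.AutO27.E_apply hQ1 hP, ho 1 (by omega) 4 (by omega) (by omega), ho 2 (by omega) 4 (by omega) (by omega)]; simp
      · rw [CfsgLib.AutO27.E_apply hQ1 hP, hxp 1 (by omega) (by omega), map_sub, map_sub, map_add, map_smul, map_smul, map_smul, h1]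
        have e1 : xB F 1 (eB F 1) = 1 := by rw [cfB.xe 1 (by rw [hd]; omega) 1 (by rw [hd]; omega), if_pos rfl]
        have e2 : xB F 1 (eB F 2) = 0 := by rw [cfB.xe 1 (by rw [hd]; omega) 2 (by rw [hd]; omega), if_neg (by omega)]
        have e3 : Q5 (eB F 2) = 1 := by
          rw [frB.q 2 (by rw [hd]; omega)]; simp [Md.qq, mB2]
        have e4 : B5 (eB F 2) (g2.1 (eB F 1)) = 0 := by
          rw [b5_apply, x2, x0, x1, x4]
          rw [eB_apply (by omega) (by omega : 1 < 5), if_neg (by omega)]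
          ring
        rw [e1, e2, e3, e4]
        have e5 : xB F (4 - 1) (g2.1 (eB F 1)) = (g2.1 (eB F 1)) (s5 3) := rfl
        rw [e5]
        simpa using x3
    · exact ⟨1, rfl, rfl, h1⟩
  obtain ⟨y3, h30, h34, h31⟩ := st3
  obtain ⟨g3, hg3⟩ : ∃ g3 : OGrp Q5, g3 = y3.1 * g2 := ⟨_, rfl⟩
  have a30 : g3.1 (eB F 0) = c0 • eB F 0 := by rw [hg3, og_mul_apply, a20, map_smul, h30]
  have a34 : g3.1 (eB F 4) = c4 • eB F 4 := by rw [hg3, og_mul_apply, a24, map_smul, h34]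
  have h31' : xB F 1 (g3.1 (eB F 1)) ≠ 0 := by rw [hg3, og_mul_apply]; exact h31
  obtain ⟨y4, h41, -, h42⟩ := hkill 3 (by omega) (by omega) (g3.1 (eB F 1)) (by rw [og_Q, hq 1 (by omega) (by omega)]) h31'
  have hor3 := orth g3 a30 a34 1 (by omega) (by omega) (by omega)
  obtain ⟨g4, hg4⟩ : ∃ g4 : OGrp Q5, g4 = y4.1 * g3 := ⟨_, rfl⟩
  have a40 : g4.1 (eB F 0) = c0 • eB F 0 := by
    rw [hg4, og_mul_apply, a30, map_smul, h42 _ (ho 3 (by omega) 0 (by omega) (by omega)) (ho 1 (by omega) 0 (by omega) (by omega)) hor3.1]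
  have a44 : g4.1 (eB F 4) = c4 • eB F 4 := by
    rw [hg4, og_mul_apply, a34, map_smul, h42 _ (ho 3 (by omega) 4 (by omega) (by omega)) (ho 1 (by omega) 4 (by omega) (by omega)) hor3.2]
  obtain ⟨c1, hc1⟩ : ∃ c1, c1 = xB F 1 (g3.1 (eB F 1)) := ⟨_, rfl⟩
  have a41 : g4.1 (eB F 1) = c1 • eB F 1 := by rw [hg4, og_mul_apply, hc1]; exact h41
  rw [← hc1] at h31'
  -- step 4
  have b3 : c1 * xB F 3 (g4.1 (eB F 3)) = 1 := by
    have h := og_polar g4 (eB F 1) (eB F 3)
    rw [a41, QuadraticMap.polar_smul_left, hdu 1 (by omega) 3 (by omega) (by omega) (by omega), hxp 1 (by omega) (by omega)] at h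
    exact h
  have b4 : xB F 3 (g4.1 (eB F 3)) ≠ 0 := right_ne_zero_of_mul_eq_one b3
  obtain ⟨y5, h51, h52, h53⟩ := hkill 1 (by omega) (by omega) (g4.1 (eB F 3)) (by rw [og_Q, hq 3 (by omega) (by omega)]) b4
  have hor4 := orth g4 a40 a44 3 (by omega) (by omega) (by omega)
  obtain ⟨g5, hg5⟩ : ∃ g5 : OGrp Q5, g5 = y5.1 * g4 := ⟨_, rfl⟩
  have a50 : g5.1 (eB F 0) = c0 • eB F 0 := by
    rw [hg5, og_mul_apply, a40, map_smul, h53 _ (ho 1 (by omega) 0 (by omega) (by omega)) (ho 3 (by omega) 0 (by omega) (by omega)) hor4.1]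
  have a54 : g5.1 (eB F 4) = c4 • eB F 4 := by
    rw [hg5, og_mul_apply, a44, map_smul, h53 _ (ho 1 (by omega) 4 (by omega) (by omega)) (ho 3 (by omega) 4 (by omega) (by omega)) hor4.2]
  have a51 : g5.1 (eB F 1) = c1 • eB F 1 := by rw [hg5, og_mul_apply, a41, map_smul, h52]
  obtain ⟨c3, hc3⟩ : ∃ c3, c3 = xB F 3 (g4.1 (eB F 3)) := ⟨_, rfl⟩
  have a53 : g5.1 (eB F 3) = c3 • eB F 3 := by rw [hg5, og_mul_apply, hc3]; exact h51
  rw [← hc3] at b4
  refine ⟨y5 * y4 * y3 * y2 * y1, ?_⟩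
  have hfin : (y5 * y4 * y3 * y2 * y1).1 * g = g5 := by
    rw [hg5, hg4, hg3, hg2, hg1]
    show y5.1 * y4.1 * y3.1 * y2.1 * y1.1 * g = _
    group
  rw [hfin]
  intro a ha
  interval_cases a
  · exact ⟨c0, a50⟩
  · exact ⟨c1, a51⟩
  · refine ⟨xB F 2 (g5.1 (eB F 2)), ?_⟩
    have hor5 := orth g5 a50 a54 2 (by omega) (by omega) (by omega)
    have z0 : xB F 0 (g5.1 (eB F 2)) = 0 := by
      rw [← hxp 4 (by omega) (by omega), hbeta, hor5.2]
    have z4 : xB F 4 (g5.1 (eB F 2)) = 0 := by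
      rw [← hxp 0 (by omega) (by omega), hbeta, hor5.1]
    have z1 : xB F 1 (g5.1 (eB F 2)) = 0 := by
      rw [← hxp 3 (by omega) (by omega)]
      have h := og_polar g5 (eB F 3) (eB F 2)
      rw [a53, QuadraticMap.polar_smul_left, ho 3 (by omega) 2 (by omega) (by omega), smul_eq_mul] at h
      exact (mul_eq_zero.1 h).resolve_left b4
    have z3 : xB F 3 (g5.1 (eB F 2)) = 0 := by
      rw [← hxp 1 (by omega) (by omega)]
      have h := og_polar g5 (eB F 1) (eB F 2)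
      rw [a51, QuadraticMap.polar_smul_left, ho 1 (by omega) 2 (by omega) (by omega), smul_eq_mul] at h
      exact (mul_eq_zero.1 h).resolve_left h31'
    ext i
    obtain ⟨a, ha, rfl⟩ := s5_surj i
    rw [Pi.smul_apply, eB_apply (by omega) ha, smul_eq_mul]
    interval_cases a
    · rw [if_neg (by omega), mul_zero]; exact z0
    · rw [if_neg (by omega), mul_zero]; exact z1
    · rw [if_pos rfl, mul_one]; rfl
    · rw [if_neg (by omega), mul_zero]; exact z3
    · rw [if_neg (by omega), mul_zero]; exact z4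
  · exact ⟨c3, a53⟩
  · exact ⟨c4, a54⟩

theorem commB (hF : ∃ a : F, a ≠ 0 ∧ a ≠ 1) : commutator (OGrp Q5) = EG Q5 := by
  apply le_antisymm
  · rw [commutator_def, Subgroup.commutator_le]
    intro g _ g' _
    obtain ⟨y, hy⟩ := to_diag g
    obtain ⟨y', hy'⟩ := to_diag g'
    have hc := hy.comm hy'
    have m1 : (QuotientGroup.mk' (EG Q5)) g = (QuotientGroup.mk' (EG Q5)) (y.1 * g) := by
      rw [map_mul]
      have : (QuotientGroup.mk' (EG Q5)) y.1 = 1 := by
        rw [QuotientGroup.mk'_apply, QuotientGroup.eq_one_iff]; exact y.2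
      rw [this, one_mul]
    have m2 : (QuotientGroup.mk' (EG Q5)) g' = (QuotientGroup.mk' (EG Q5)) (y'.1 * g') := by
      rw [map_mul]
      have : (QuotientGroup.mk' (EG Q5)) y'.1 = 1 := by
        rw [QuotientGroup.mk'_apply, QuotientGroup.eq_one_iff]; exact y'.2
      rw [this, one_mul]
    rw [← QuotientGroup.eq_one_iff, ← QuotientGroup.mk'_apply, map_commutatorElement, commutatorElement_eq_one_iff_mul_comm,
      m1, m2, ← map_mul, ← map_mul, hc]
  · rw [← G0B_eq]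
    unfold G0
    rw [Subgroup.closure_le]
    rintro _ ⟨r, hr, t, rfl⟩
    exact xe_comm hF hr t

theorem isoB (hF : ∃ a : F, a ≠ 0 ∧ a ≠ 1) : Nonempty (↥(chevB2.group F) ≃* Cfsg.POmega F (Cfsg.quadFormOdd 2 F)) := by
  have hd : mB2.d = 5 := rfl
  obtain ⟨h1, h2⟩ := good4_B2.simple_of_perf (F := F) (perf_B2 hF) (by decide)
  obtain ⟨i1⟩ := iso_G0 (F := F) (Q := Q5) (e := eB F) good3_B2 chkR_mB2 chkL_mB2 chk_mB2 (by rw [hd]; omega) frB chkN_mB2 cfB
    (fun y _ H r hr t => kerB H hr t) h1 h2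
  have i2 : Cfsg.Omega F ⇑Q5 ≃* EG Q5 := (omegaIso Q5).trans (MulEquiv.subgroupCongr (commB hF))
  have i3 : Cfsg.Omega F ⇑Q5 ≃* G0 mB2 8 Q5 (eB F) := i2.trans (MulEquiv.subgroupCongr G0B_eq.symm)
  have i4 := quotCenterCongr i3
  rw [coe_qOdd] at i4
  exact ⟨(i4.trans i1).symm⟩

end B2

end Cfsg.Agent.H22.Cv
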