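import Cfsg.Agent.LibH22POrd
import Cfsg.Agent.LibH22Exist
import Cfsg.Agent.LibH22PSL2

set_option autoImplicit false

/-! Exceptional isomorphisms: general principle (seat helper22). -/

namespace Cfsg.Agent.H22

open scoped commutatorElement

/-- A non-commutative image of a quasisimple group in `H` whose derived group has the right order mod centre. -/
theorem iso_of_quasisimple {G H : Type*} [Group G] [Group H] [Finite G] [Finite H]
    (hsimp : IsSimpleGroup (G ⧸ Subgroup.center G)) (hperf : commutator G = ⊤) (ρ : G →* H)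
    (hρ : ∃ g k : G, ρ g * ρ k ≠ ρ k * ρ g)
    (hcard : Nat.card (commutator H ⧸ Subgroup.center (commutator H)) = Nat.card (G ⧸ Subgroup.center G)) :
    Nonempty ((commutator H ⧸ Subgroup.center (commutator H)) ≃* (G ⧸ Subgroup.center G)) := by
  have hmem : ∀ g, ρ g ∈ commutator H := by
    intro g
    have hg : g ∈ commutator G := by rw [hperf]; trivial
    have h1 : (commutator G).map ρ ≤ commutator H := by
      rw [commutator_def, commutator_def, Subgroup.map_commutator]
      exact Subgroup.commutator_mono le_top le_top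
    exact h1 ⟨g, hg, rfl⟩
  obtain ⟨ρ', hρ'⟩ : ∃ ρ' : G →* commutator H, ∀ g, (ρ' g : H) = ρ g := ⟨ρ.codRestrict _ hmem, fun g => rfl⟩
  obtain ⟨φ, hφ⟩ : ∃ φ : G →* (commutator H ⧸ Subgroup.center (commutator H)), φ = (QuotientGroup.mk' _).comp ρ' := ⟨_, rfl⟩
  have hne : φ.ker ≠ ⊤ := by
    intro htop
    obtain ⟨g, k, hgk⟩ := hρ
    apply hgk
    have h1 : g ∈ φ.ker := by rw [htop]; trivial
    rw [hφ, MonoidHom.mem_ker, MonoidHom.comp_apply, QuotientGroup.mk'_apply, QuotientGroup.eq_one_iff, Subgroup.mem_center_iff] at h1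
    have h2 := congrArg Subtype.val (h1 (ρ' k))
    have h3 : (ρ' k : H) * (ρ' g : H) = (ρ' g : H) * (ρ' k : H) := h2
    rw [hρ', hρ'] at h3
    exact h3.symm
  have hle : φ.ker ≤ Subgroup.center G := by
    rcases hsimp.eq_bot_or_eq_top_of_normal (φ.ker.map (QuotientGroup.mk' (Subgroup.center G))) (Subgroup.Normal.map inferInstance _ (QuotientGroup.mk'_surjective _)) with h | h
    · rw [Subgroup.map_eq_bot_iff, QuotientGroup.ker_mk'] at h
      exact h
    · exfalso
      apply hne
      have h1 : φ.ker ⊔ Subgroup.center G = ⊤ := by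
        have := congrArg (Subgroup.comap (QuotientGroup.mk' (Subgroup.center G))) h
        rw [Subgroup.comap_map_eq, QuotientGroup.ker_mk', Subgroup.comap_top] at this
        exact this
      rw [eq_top_iff, ← hperf, commutator_def, Subgroup.commutator_le]
      intro a _ b _
      have ha : a ∈ ((φ.ker ⊔ Subgroup.center G : Subgroup G) : Set G) := by rw [h1]; trivial
      have hb : b ∈ ((φ.ker ⊔ Subgroup.center G : Subgroup G) : Set G) := by rw [h1]; trivial
      rw [Subgroup.normal_mul] at ha hb
      obtain ⟨n, hn, z, hz, rfl⟩ := Set.mem_mul.1 ha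
      obtain ⟨m, hm, y, hy, rfl⟩ := Set.mem_mul.1 hb
      rw [MonoidHom.mem_ker, map_commutatorElement, commutatorElement_eq_one_iff_mul_comm]
      have en : φ n = 1 := hn
      have em : φ m = 1 := hm
      rw [map_mul, map_mul, en, em, one_mul, one_mul, ← map_mul, ← map_mul, (Subgroup.mem_center_iff.1 hy z)]
  have h1 : Nat.card (G ⧸ Subgroup.center G) * Nat.card (Subgroup.center G) = Nat.card G := by
    rw [← Subgroup.card_eq_card_quotient_mul_card_subgroup]
  have h2 : Nat.card (G ⧸ φ.ker) * Nat.card φ.ker = Nat.card G := by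
    rw [← Subgroup.card_eq_card_quotient_mul_card_subgroup]
  have h3 : Nat.card (G ⧸ φ.ker) = Nat.card φ.range := Nat.card_congr (QuotientGroup.quotientKerEquivRange φ).toEquiv
  have h4 : Nat.card φ.range ≤ Nat.card (commutator H ⧸ Subgroup.center (commutator H)) :=
    Nat.card_le_card_of_injective _ Subtype.val_injective
  have h5 : Nat.card φ.ker ≤ Nat.card (Subgroup.center G) := Subgroup.card_le_of_le hle
  have hpos1 : 0 < Nat.card (Subgroup.center G) := Nat.card_pos
  have hpos2 : 0 < Nat.card φ.range := Nat.card_pos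
  rw [h3] at h2
  rw [hcard] at h4
  have h6 : Nat.card φ.range = Nat.card (G ⧸ Subgroup.center G) := by
    apply le_antisymm h4
    by_contra hlt
    push Not at hlt
    have : Nat.card φ.range * Nat.card φ.ker < Nat.card (G ⧸ Subgroup.center G) * Nat.card (Subgroup.center G) :=
      lt_of_le_of_lt (Nat.mul_le_mul_left _ h5) (Nat.mul_lt_mul_of_pos_right hlt hpos1)
    omega
  have h7 : Nat.card φ.ker = Nat.card (Subgroup.center G) := by
    rw [h6] at h2
    have := h2.trans h1.symm
    exact Nat.eq_of_mul_eq_mul_left (by rw [← h6]; exact hpos2) this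
  have hker : φ.ker = Subgroup.center G := Subgroup.eq_of_le_of_card_ge hle h7.ge
  have hsurj : Function.Surjective φ := by
    rw [← MonoidHom.range_eq_top]
    apply Subgroup.eq_top_of_card_eq
    rw [h6, hcard]
  exact ⟨((QuotientGroup.quotientMulEquivOfEq hker.symm).trans (QuotientGroup.quotientKerEquivOfSurjective φ hsurj)).symm⟩

section
variable {F : Type*} [Field F] [Fintype F] {ι : Type} [Fintype ι] [DecidableEq ι]

instance finite_OGrp {V : Type*} [AddCommGroup V] [Module F V] [Finite V] (Q : QuadraticForm F V) : Finite (OGrp Q) := by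
  haveI : Finite (V ≃ₗ[F] V) := by
    apply Finite.of_injective (fun g : V ≃ₗ[F] V => (g : V → V))
    intro a b h
    ext x
    exact congrFun h x
  infer_instance

/-- `PΩ` in terms of the abstract group -/
noncomputable def pomegaIso (Q : QuadraticForm F (ι → F)) :
    Cfsg.POmega F ⇑Q ≃* (commutator (OGrp Q) ⧸ Subgroup.center (commutator (OGrp Q))) := quotCenterCongr (omegaIso Q)

end

end Cfsg.Agent.H22
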