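import Cfsg.Agent.LibH22Exc5
import Cfsg.Agent.LibH22Spin2
import Cfsg.Agent.LibH22OOrd3

set_option autoImplicit false

/-! Exceptional isomorphisms in small dimension: generalities (seat helper22). -/

namespace Cfsg.Agent.H22

open scoped commutatorElement

theorem commutator_le_of_index_two' {H : Type*} [Group H] {N : Subgroup H} (hN : N.index = 2) : commutator H ≤ N := by
  haveI : N.Normal := Subgroup.normal_of_index_eq_two hN
  apply Subgroup.Normal.quotient_commutative_iff_commutator_le.1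
  have hc : Nat.card (H ⧸ N) = 2 := hN
  haveI : Fact (Nat.Prime 2) := ⟨Nat.prime_two⟩
  haveI : IsCyclic (H ⧸ N) := isCyclic_of_prime_card hc
  exact ⟨⟨fun a b => (IsCyclic.commGroup (α := H ⧸ N)).mul_comm a b⟩⟩

theorem range_eq_commutator {G H : Type*} [Group G] [Group H] [Finite H] (σ : G →* H)
    (hle : σ.range ≤ commutator H) (hidx : σ.range.index = 2 ∨ (σ.range.index = 4 ∧ (commutator H).index = 4)) :
    σ.range = commutator H := by
  rcases hidx with h | ⟨h, h'⟩
  · exact le_antisymm hle (commutator_le_of_index_two' h)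
  · apply Subgroup.eq_of_le_of_card_ge hle
    have e1 := Subgroup.card_mul_index σ.range
    have e2 := Subgroup.card_mul_index (commutator H)
    rw [h] at e1
    rw [h'] at e2
    omega

theorem iso_of_range {G H : Type*} [Group G] [Group H] (σ : G →* H)
    (hr : σ.range = commutator H) (hc : ∀ g, (∀ x, σ g * σ x = σ x * σ g) → g ∈ Subgroup.center G) :
    Nonempty ((commutator H ⧸ Subgroup.center (commutator H)) ≃* (G ⧸ Subgroup.center G)) := by
  have hmem : ∀ g, σ g ∈ commutator H := fun g => by rw [← hr]; exact ⟨g, rfl⟩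
  obtain ⟨ρ', hρ'⟩ : ∃ ρ' : G →* commutator H, ∀ g, (ρ' g : H) = σ g := ⟨σ.codRestrict _ hmem, fun g => rfl⟩
  have hs' : Function.Surjective ρ' := by
    rintro ⟨x, hx⟩
    rw [← hr] at hx
    obtain ⟨g, hg⟩ := hx
    refine ⟨g, ?_⟩
    apply Subtype.ext
    rw [hρ']; exact hg
  obtain ⟨φ, hφ⟩ : ∃ φ : G →* (commutator H ⧸ Subgroup.center (commutator H)), φ = (QuotientGroup.mk' _).comp ρ' := ⟨_, rfl⟩
  have hsurj : Function.Surjective φ := by
    rw [hφ]
    exact (QuotientGroup.mk'_surjective _).comp hs'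
  have hker : φ.ker = Subgroup.center G := by
    ext g
    rw [hφ, MonoidHom.mem_ker, MonoidHom.comp_apply, QuotientGroup.mk'_apply, QuotientGroup.eq_one_iff, Subgroup.mem_center_iff]
    constructor
    · intro h
      apply hc
      intro x
      have h2 := congrArg Subtype.val (h (ρ' x))
      have h3 : (ρ' x : H) * (ρ' g : H) = (ρ' g : H) * (ρ' x : H) := h2
      rw [hρ', hρ'] at h3
      exact h3.symm
    · intro h y
      obtain ⟨x, rfl⟩ := hs' y
      rw [← map_mul, ← map_mul, (Subgroup.mem_center_iff.1 h x)]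
  exact ⟨((QuotientGroup.quotientMulEquivOfEq hker.symm).trans (QuotientGroup.quotientKerEquivOfSurjective φ hsurj)).symm⟩

/-- index of the range -/
lemma range_index {G H : Type*} [Group G] [Group H] [Finite G] [Finite H] (σ : G →* H) :
    Nat.card G * σ.range.index = Nat.card H * Nat.card σ.ker := by
  have h2 : Nat.card (G ⧸ σ.ker) * Nat.card σ.ker = Nat.card G := by
    rw [← Subgroup.card_eq_card_quotient_mul_card_subgroup]
  have h3 : Nat.card (G ⧸ σ.ker) = Nat.card σ.range := Nat.card_congr (QuotientGroup.quotientKerEquivRange σ).toEquiv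
  have h4 := Subgroup.card_mul_index σ.range
  rw [← h2, h3, ← h4]
  ring

section sl2
variable {F : Type*} [Field F]

lemma sl_comm_of_transvections {ι : Type} [Fintype ι] [DecidableEq ι] [Nontrivial ι] {g : Matrix.SpecialLinearGroup ι F}
    (h : ∀ (i j : ι) (hij : i ≠ j) (c : F), g * Matrix.SpecialLinearGroup.transvection hij c = Matrix.SpecialLinearGroup.transvection hij c * g) :
    g ∈ Subgroup.center (Matrix.SpecialLinearGroup ι F) := by
  rw [Subgroup.mem_center_iff]
  intro A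
  exact (SLn.transvection_induction (fun A => g * A = A * g) h (fun A B hA hB => by
    rw [← mul_assoc, hA, mul_assoc, hB, mul_assoc]) A).symm

/-- An element of `SL_2` commuting with everything modulo the centre is central. -/
lemma sl2_center_of_mod {g : Matrix.SpecialLinearGroup (Fin 2) F}
    (h : ∀ x, ∃ z ∈ Subgroup.center (Matrix.SpecialLinearGroup (Fin 2) F), g * x = z * (x * g)) :
    g ∈ Subgroup.center (Matrix.SpecialLinearGroup (Fin 2) F) := by
  apply sl_comm_of_transvections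
  intro i j hij c
  obtain ⟨z, hz, hzx⟩ := h (Matrix.SpecialLinearGroup.transvection hij c)
  have hz' := hz
  rw [Matrix.SpecialLinearGroup.mem_center_iff] at hz'
  obtain ⟨r, hr, hrz⟩ := hz'
  have h1 : g * Matrix.SpecialLinearGroup.transvection hij c * g⁻¹ = z * Matrix.SpecialLinearGroup.transvection hij c := by
    rw [hzx]; group
  have h2 := congrArg (fun A : Matrix.SpecialLinearGroup (Fin 2) F => Matrix.trace (A : Matrix (Fin 2) (Fin 2) F)) h1
  simp only [Matrix.SpecialLinearGroup.coe_mul] at h2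
  rw [Matrix.trace_mul_cycle, ← Matrix.SpecialLinearGroup.coe_mul, inv_mul_cancel, Matrix.SpecialLinearGroup.coe_one, Matrix.one_mul, ← hrz,
    Matrix.SpecialLinearGroup.transvection_coe] at h2
  have h3 : Matrix.trace (1 + Matrix.single i j c : Matrix (Fin 2) (Fin 2) F) = 2 := by
    rw [Matrix.trace_add, Matrix.trace_one, Matrix.trace_single_eq_of_ne _ _ _ hij]
    simp
  have h4 : Matrix.trace (Matrix.scalar (Fin 2) r * (1 + Matrix.single i j c : Matrix (Fin 2) (Fin 2) F)) = r * 2 := by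
    rw [← h3, Matrix.scalar_apply, ← Matrix.smul_eq_diagonal_mul, Matrix.trace_smul, smul_eq_mul]
  rw [h3, h4] at h2
  have h5 : r = 1 := by
    rw [Fintype.card_fin] at hr
    by_cases h20 : (2 : F) = 0
    · have : (r - 1) ^ 2 = 0 := by linear_combination hr + (1 - r) * h20
      exact sub_eq_zero.1 (pow_eq_zero_iff (two_ne_zero) |>.1 this)
    · have : (2 : F) * (r - 1) = 0 := by linear_combination -h2
      exact sub_eq_zero.1 ((mul_eq_zero.1 this).resolve_left h20)
  have h6 : z = 1 := by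
    apply sl_ext
    rw [← hrz, h5]
    simp
  rw [hzx, h6, one_mul]

/-- trace-zero matrices -/
def t3 (v : Unit ⊕ (Fin 1 ⊕ Fin 1) → F) : Matrix (Fin 2) (Fin 2) F :=
  !![v (.inl ()), v (.inr (.inl 0)); v (.inr (.inr 0)), -v (.inl ())]

/-- coordinates -/
def p3 (M : Matrix (Fin 2) (Fin 2) F) : Unit ⊕ (Fin 1 ⊕ Fin 1) → F :=
  Sum.elim (fun _ => M 0 0) (Sum.elim (fun _ => M 0 1) (fun _ => M 1 0))

lemma p3_t3 (v : Unit ⊕ (Fin 1 ⊕ Fin 1) → F) : p3 (t3 v) = v := by
  ext k
  rcases k with k | k | k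
  · rfl
  · fin_cases k; rfl
  · fin_cases k; rfl

lemma t3_p3 {M : Matrix (Fin 2) (Fin 2) F} (hM : M.trace = 0) : t3 (p3 M) = M := by
  rw [Matrix.trace_fin_two] at hM
  ext i j
  fin_cases i <;> fin_cases j
  · rfl
  · rfl
  · rfl
  · show - M 0 0 = M 1 1
    linear_combination -hM

lemma trace_t3 (v : Unit ⊕ (Fin 1 ⊕ Fin 1) → F) : (t3 v).trace = 0 := by
  rw [Matrix.trace_fin_two]; simp [t3]

lemma t3_add (v w : Unit ⊕ (Fin 1 ⊕ Fin 1) → F) : t3 (v + w) = t3 v + t3 w := by
  ext i j; fin_cases i <;> fin_cases j <;> simp [t3] <;> ring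

lemma t3_smul (c : F) (v : Unit ⊕ (Fin 1 ⊕ Fin 1) → F) : t3 (c • v) = c • t3 v := by
  ext i j; fin_cases i <;> fin_cases j <;> simp [t3]

lemma p3_add (M N : Matrix (Fin 2) (Fin 2) F) : p3 (M + N) = p3 M + p3 N := by
  ext k
  rcases k with k | k | k <;> rfl

lemma p3_smul (c : F) (M : Matrix (Fin 2) (Fin 2) F) : p3 (c • M) = c • p3 M := by
  ext k
  rcases k with k | k | k <;> rfl

lemma Q_t3 (v : Unit ⊕ (Fin 1 ⊕ Fin 1) → F) : qOdd 1 F v = - (t3 v).det := by
  rw [coe_qOdd, Matrix.det_fin_two]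
  unfold Cfsg.quadFormOdd
  simp [t3]
  ring

open Matrix in
theorem exists_rho3 : ∃ ρ : GL (Fin 2) F →* OGrp (qOdd 1 F),
    ∀ g w, t3 ((ρ g).1 w) = (g : Matrix (Fin 2) (Fin 2) F) * t3 w * ((g⁻¹ : GL (Fin 2) F) : Matrix (Fin 2) (Fin 2) F) := by
  have key : ∀ (g : GL (Fin 2) F) w, t3 (p3 ((g : Matrix (Fin 2) (Fin 2) F) * t3 w * ((g⁻¹ : GL (Fin 2) F) : Matrix (Fin 2) (Fin 2) F))) =
      (g : Matrix (Fin 2) (Fin 2) F) * t3 w * ((g⁻¹ : GL (Fin 2) F) : Matrix (Fin 2) (Fin 2) F) := by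
    intro g w
    apply t3_p3
    rw [Matrix.trace_units_conj, trace_t3]
  suffices H : ∃ ρ : GL (Fin 2) F →* OGrp (qOdd 1 F), ∀ g w, (ρ g).1 w = p3 ((g : Matrix (Fin 2) (Fin 2) F) * t3 w * ((g⁻¹ : GL (Fin 2) F) : Matrix (Fin 2) (Fin 2) F)) by
    obtain ⟨ρ, hρ⟩ := H
    refine ⟨ρ, fun A w => ?_⟩
    rw [hρ, key]
  refine mkRep (qOdd 1 F) (fun (g : GL (Fin 2) F) w => p3 ((g : Matrix (Fin 2) (Fin 2) F) * t3 w * ((g⁻¹ : GL (Fin 2) F) : Matrix (Fin 2) (Fin 2) F))) ?_ ?_ ?_ ?_ ?_
  · intro w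
    rw [inv_one, Units.val_one, one_mul, mul_one, p3_t3]
  · intro g h w
    rw [key, _root_.mul_inv_rev, Units.val_mul, Units.val_mul]
    simp only [Matrix.mul_assoc]
  · intro g v w
    rw [t3_add, Matrix.mul_add, Matrix.add_mul, p3_add]
  · intro g c w
    rw [t3_smul, Matrix.mul_smul, Matrix.smul_mul, p3_smul]
  · intro g w
    rw [Q_t3, Q_t3, key, Matrix.det_units_conj]

end sl2

end Cfsg.Agent.H22
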