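import Cfsg.Agent.LibH22Exc3

set_option autoImplicit false

/-! `SL_2 × SL_2 → O_4^+` (seat helper22). -/

namespace Cfsg.Agent.H22

open Matrix
open scoped commutatorElement

section
variable {F : Type*} [Field F]

/-- matrices as a 4-space -/
def t4 (v : Fin 2 ⊕ Fin 2 → F) : Matrix (Fin 2) (Fin 2) F :=
  !![v (.inl 0), v (.inl 1); -v (.inr 1), v (.inr 0)]

/-- coordinates -/
def p4 (M : Matrix (Fin 2) (Fin 2) F) : Fin 2 ⊕ Fin 2 → F :=
  Sum.elim ![M 0 0, M 0 1] ![M 1 1, - M 1 0]

lemma p4_t4 (v : Fin 2 ⊕ Fin 2 → F) : p4 (t4 v) = v := by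
  ext k
  rcases k with k | k <;> fin_cases k <;> simp [p4, t4]

lemma t4_p4 (M : Matrix (Fin 2) (Fin 2) F) : t4 (p4 M) = M := by
  ext i j
  fin_cases i <;> fin_cases j <;> simp [p4, t4]

lemma t4_add (v w : Fin 2 ⊕ Fin 2 → F) : t4 (v + w) = t4 v + t4 w := by
  ext i j; fin_cases i <;> fin_cases j <;> simp [t4] <;> ring

lemma t4_smul (c : F) (v : Fin 2 ⊕ Fin 2 → F) : t4 (c • v) = c • t4 v := by
  ext i j; fin_cases i <;> fin_cases j <;> simp [t4]

lemma p4_add (M N : Matrix (Fin 2) (Fin 2) F) : p4 (M + N) = p4 M + p4 N := by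
  ext k
  rcases k with k | k <;> fin_cases k <;> simp [p4]
  ring

lemma p4_smul (c : F) (M : Matrix (Fin 2) (Fin 2) F) : p4 (c • M) = c • p4 M := by
  ext k
  rcases k with k | k <;> fin_cases k <;> simp [p4]

lemma Q_t4 (v : Fin 2 ⊕ Fin 2 → F) : qPlus 2 F v = (t4 v).det := by
  rw [coe_qPlus, Matrix.det_fin_two]
  unfold Cfsg.quadFormPlus
  simp [t4, Fin.sum_univ_two]

/-- pairs with equal determinant -/
def G1 (F : Type*) [Field F] : Subgroup (GL (Fin 2) F × GL (Fin 2) F) :=
  MonoidHom.eqLocus (Matrix.GeneralLinearGroup.det.comp (MonoidHom.fst _ _)) (Matrix.GeneralLinearGroup.det.comp (MonoidHom.snd _ _))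

lemma mem_G1 {p : GL (Fin 2) F × GL (Fin 2) F} : p ∈ G1 F ↔ Matrix.GeneralLinearGroup.det p.1 = Matrix.GeneralLinearGroup.det p.2 := Iff.rfl

theorem exists_rho4 : ∃ ρ : G1 F →* OGrp (qPlus 2 F),
    ∀ g w, t4 ((ρ g).1 w) = (g.1.1 : Matrix (Fin 2) (Fin 2) F) * t4 w * ((g.1.2⁻¹ : GL (Fin 2) F) : Matrix (Fin 2) (Fin 2) F) := by
  suffices H : ∃ ρ : G1 F →* OGrp (qPlus 2 F), ∀ g w, (ρ g).1 w = p4 ((g.1.1 : Matrix (Fin 2) (Fin 2) F) * t4 w * ((g.1.2⁻¹ : GL (Fin 2) F) : Matrix (Fin 2) (Fin 2) F)) by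
    obtain ⟨ρ, hρ⟩ := H
    refine ⟨ρ, fun A w => ?_⟩
    rw [hρ, t4_p4]
  refine mkRep (qPlus 2 F) (fun (g : G1 F) w => p4 ((g.1.1 : Matrix (Fin 2) (Fin 2) F) * t4 w * ((g.1.2⁻¹ : GL (Fin 2) F) : Matrix (Fin 2) (Fin 2) F))) ?_ ?_ ?_ ?_ ?_
  · intro w
    rw [Subgroup.coe_one, Prod.fst_one, Prod.snd_one, inv_one, Units.val_one, one_mul, mul_one, p4_t4]
  · intro g h w
    rw [t4_p4, Subgroup.coe_mul, Prod.fst_mul, Prod.snd_mul, _root_.mul_inv_rev, Units.val_mul, Units.val_mul]
    simp only [Matrix.mul_assoc]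
  · intro g v w
    rw [t4_add, Matrix.mul_add, Matrix.add_mul, p4_add]
  · intro g c w
    rw [t4_smul, Matrix.mul_smul, Matrix.smul_mul, p4_smul]
  · intro g w
    have hg := congrArg (fun u : Fˣ => (u : F)) (mem_G1.1 g.2)
    rw [Q_t4, Q_t4, t4_p4, Matrix.det_mul, Matrix.det_mul]
    have h1 : ((g.1.1 : GL (Fin 2) F) : Matrix (Fin 2) (Fin 2) F).det = ((g.1.2 : GL (Fin 2) F) : Matrix (Fin 2) (Fin 2) F).det := hg
    have h2 : ((g.1.2 : GL (Fin 2) F) : Matrix (Fin 2) (Fin 2) F).det * ((g.1.2⁻¹ : GL (Fin 2) F) : Matrix (Fin 2) (Fin 2) F).det = 1 := by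
      rw [← Matrix.det_mul, ← Units.val_mul, mul_inv_cancel, Units.val_one, Matrix.det_one]
    rw [h1]
    linear_combination (t4 w).det * h2

/-- inclusion -/
def inG1 : Matrix.SpecialLinearGroup (Fin 2) F × Matrix.SpecialLinearGroup (Fin 2) F →* G1 F where
  toFun p := ⟨(Matrix.SpecialLinearGroup.toGL p.1, Matrix.SpecialLinearGroup.toGL p.2), by
    rw [mem_G1]
    apply Units.ext
    show (p.1 : Matrix (Fin 2) (Fin 2) F).det = (p.2 : Matrix (Fin 2) (Fin 2) F).det
    rw [Matrix.SpecialLinearGroup.det_coe, Matrix.SpecialLinearGroup.det_coe]⟩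
  map_one' := by
    apply Subtype.ext
    show (Matrix.SpecialLinearGroup.toGL 1, Matrix.SpecialLinearGroup.toGL 1) = _
    rw [map_one]; rfl
  map_mul' p r := by
    apply Subtype.ext
    show (Matrix.SpecialLinearGroup.toGL (p.1 * r.1), Matrix.SpecialLinearGroup.toGL (p.2 * r.2)) = _
    rw [map_mul, map_mul]; rfl

/-- conjugation of a transvection by a diagonal matrix -/
lemma exists_conj_transvection {a : F} (ha0 : a ≠ 0) {i j : Fin 2} (hij : i ≠ j) : ∃ d : GL (Fin 2) F, ∀ c : F,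
    d * Matrix.SpecialLinearGroup.toGL (Matrix.SpecialLinearGroup.transvection hij c) =
      Matrix.SpecialLinearGroup.toGL (Matrix.SpecialLinearGroup.transvection hij (a * c)) * d := by
  refine ⟨Matrix.GeneralLinearGroup.mkOfDetNeZero
    (Matrix.diagonal (fun k => if k = i then a else 1)) (by
      rw [Matrix.det_diagonal, Finset.prod_ite_eq' Finset.univ i]; simpa using ha0), fun c => ?_⟩
  apply gl_ext
  show (Matrix.diagonal (fun k => if k = i then a else 1)) * (Matrix.SpecialLinearGroup.transvection hij c : Matrix (Fin 2) (Fin 2) F) =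
    (Matrix.SpecialLinearGroup.transvection hij (a * c) : Matrix (Fin 2) (Fin 2) F) * Matrix.diagonal (fun k => if k = i then a else 1)
  rw [Matrix.SpecialLinearGroup.transvection_coe, Matrix.SpecialLinearGroup.transvection_coe]
  ext s t
  rw [Matrix.diagonal_mul, Matrix.mul_diagonal]
  simp only [Matrix.add_apply, Matrix.one_apply, Matrix.single_apply]
  split_ifs <;> grind

lemma inG1_mem {a : F} (ha0 : a ≠ 0) (ha1 : a ≠ 1) (p : Matrix.SpecialLinearGroup (Fin 2) F × Matrix.SpecialLinearGroup (Fin 2) F) :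
    inG1 p ∈ commutator (G1 F) := by
  have h1 : a - 1 ≠ 0 := sub_ne_zero_of_ne ha1
  have hl : ∀ s : Matrix.SpecialLinearGroup (Fin 2) F, inG1 (s, 1) ∈ commutator (G1 F) := by
    intro s
    refine SLn.transvection_induction (fun s => inG1 (s, 1) ∈ commutator (G1 F)) ?_ ?_ s
    · intro i j hij c
      obtain ⟨d, hd⟩ := exists_conj_transvection ha0 hij
      obtain ⟨dd, hdd⟩ : ∃ dd : G1 F, dd.1 = (d, d) := ⟨⟨(d, d), by rw [mem_G1]⟩, rfl⟩
      have e : inG1 (Matrix.SpecialLinearGroup.transvection hij c, 1) = ⁅dd, inG1 (Matrix.SpecialLinearGroup.transvection hij (c / (a - 1)), 1)⁆ := by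
        rw [commutatorElement_def, eq_mul_inv_iff_mul_eq, eq_mul_inv_iff_mul_eq]
        apply Subtype.ext
        rw [Subgroup.coe_mul, Subgroup.coe_mul, Subgroup.coe_mul, hdd]
        apply Prod.ext
        · show Matrix.SpecialLinearGroup.toGL (Matrix.SpecialLinearGroup.transvection hij c) * Matrix.SpecialLinearGroup.toGL (Matrix.SpecialLinearGroup.transvection hij (c / (a - 1))) * d = d * Matrix.SpecialLinearGroup.toGL (Matrix.SpecialLinearGroup.transvection hij (c / (a - 1)))
          rw [hd, ← map_mul, ← Matrix.SpecialLinearGroup.transvection_add]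
          congr 3
          field_simp
          ring
        · show Matrix.SpecialLinearGroup.toGL 1 * Matrix.SpecialLinearGroup.toGL 1 * d = d * Matrix.SpecialLinearGroup.toGL 1
          rw [map_one, one_mul, one_mul, mul_one]
      rw [e]
      exact Subgroup.commutator_mem_commutator (Subgroup.mem_top _) (Subgroup.mem_top _)
    · intro A B hA hB
      have e : inG1 (A * B, 1) = inG1 (A, 1) * inG1 (B, 1) := by
        rw [← map_mul]; congr 1
        exact Prod.ext rfl (one_mul _).symm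
      show inG1 (A * B, 1) ∈ _
      rw [e]; exact mul_mem hA hB
  have hr : ∀ s : Matrix.SpecialLinearGroup (Fin 2) F, inG1 (1, s) ∈ commutator (G1 F) := by
    intro s
    refine SLn.transvection_induction (fun s => inG1 (1, s) ∈ commutator (G1 F)) ?_ ?_ s
    · intro i j hij c
      obtain ⟨d, hd⟩ := exists_conj_transvection ha0 hij
      obtain ⟨dd, hdd⟩ : ∃ dd : G1 F, dd.1 = (d, d) := ⟨⟨(d, d), by rw [mem_G1]⟩, rfl⟩
      have e : inG1 (1, Matrix.SpecialLinearGroup.transvection hij c) = ⁅dd, inG1 (1, Matrix.SpecialLinearGroup.transvection hij (c / (a - 1)))⁆ := by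
        rw [commutatorElement_def, eq_mul_inv_iff_mul_eq, eq_mul_inv_iff_mul_eq]
        apply Subtype.ext
        rw [Subgroup.coe_mul, Subgroup.coe_mul, Subgroup.coe_mul, hdd]
        apply Prod.ext
        · show Matrix.SpecialLinearGroup.toGL 1 * Matrix.SpecialLinearGroup.toGL 1 * d = d * Matrix.SpecialLinearGroup.toGL 1
          rw [map_one, one_mul, one_mul, mul_one]
        · show Matrix.SpecialLinearGroup.toGL (Matrix.SpecialLinearGroup.transvection hij c) * Matrix.SpecialLinearGroup.toGL (Matrix.SpecialLinearGroup.transvection hij (c / (a - 1))) * d = d * Matrix.SpecialLinearGroup.toGL (Matrix.SpecialLinearGroup.transvection hij (c / (a - 1)))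
          rw [hd, ← map_mul, ← Matrix.SpecialLinearGroup.transvection_add]
          congr 3
          field_simp
          ring
      rw [e]
      exact Subgroup.commutator_mem_commutator (Subgroup.mem_top _) (Subgroup.mem_top _)
    · intro A B hA hB
      have e : inG1 (1, A * B) = inG1 (1, A) * inG1 (1, B) := by
        rw [← map_mul]; congr 1
        exact Prod.ext (one_mul _).symm rfl
      show inG1 (1, A * B) ∈ _
      rw [e]; exact mul_mem hA hB
  have e : p = (p.1, 1) * (1, p.2) := Prod.ext (mul_one _).symm (one_mul _).symm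
  rw [e, map_mul]
  exact mul_mem (hl _) (hr _)

lemma center_prod_eq (G H : Type*) [Group G] [Group H] : Subgroup.center (G × H) = (Subgroup.center G).prod (Subgroup.center H) := by
  ext p
  rw [Subgroup.mem_prod, Subgroup.mem_center_iff, Subgroup.mem_center_iff, Subgroup.mem_center_iff]
  constructor
  · intro h
    exact ⟨fun g => congrArg Prod.fst (h (g, 1)), fun g => congrArg Prod.snd (h (1, g))⟩
  · rintro ⟨h1, h2⟩ g
    exact Prod.ext (h1 _) (h2 _)

theorem quot_center_prod (G H : Type*) [Group G] [Group H] :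
    Nonempty ((G × H) ⧸ Subgroup.center (G × H) ≃* (G ⧸ Subgroup.center G) × (H ⧸ Subgroup.center H)) := by
  obtain ⟨φ, hφ⟩ : ∃ φ : G × H →* (G ⧸ Subgroup.center G) × (H ⧸ Subgroup.center H),
      φ = MonoidHom.prodMap (QuotientGroup.mk' _) (QuotientGroup.mk' _) := ⟨_, rfl⟩
  have hs : Function.Surjective φ := by
    rintro ⟨a, b⟩
    obtain ⟨a', rfl⟩ := QuotientGroup.mk'_surjective _ a
    obtain ⟨b', rfl⟩ := QuotientGroup.mk'_surjective _ b
    exact ⟨(a', b'), by rw [hφ]; rfl⟩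
  have hk : φ.ker = Subgroup.center (G × H) := by
    rw [center_prod_eq]
    ext p
    rw [MonoidHom.mem_ker, Subgroup.mem_prod, hφ]
    show (QuotientGroup.mk' _ p.1, QuotientGroup.mk' _ p.2) = 1 ↔ _
    rw [Prod.mk_eq_one]
    rw [QuotientGroup.mk'_apply, QuotientGroup.mk'_apply, QuotientGroup.eq_one_iff, QuotientGroup.eq_one_iff]
  exact ⟨(QuotientGroup.quotientMulEquivOfEq hk.symm).trans (QuotientGroup.quotientKerEquivOfSurjective φ hs)⟩

end

end Cfsg.Agent.H22
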