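import Cfsg.Agent.LibH22Exc4
import Cfsg.Agent.LibH22Fq2

set_option autoImplicit false

/-! `SL_2(q²) → O_4^-(q)` (seat helper22). -/

namespace Cfsg.Agent.H22

open Matrix

/-- Construct a representation in an orthogonal group from an action on a bigger space. -/
theorem mkRepInj {F : Type*} [Field F] {G W M : Type*} [Group G] [AddCommGroup W] [Module F W] [AddCommGroup M] [Module F M]
    (Q' : QuadraticForm F W) (H : W →ₗ[F] M) (hinj : Function.Injective H) (A : G → M → M)
    (h1 : ∀ m, A 1 m = m) (hmul : ∀ g h m, A (g * h) m = A g (A h m))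
    (hadd : ∀ g v w, A g (v + w) = A g v + A g w) (hsmul : ∀ g (c : F) w, A g (c • w) = c • A g w)
    (hst : ∀ g w, ∃ w', H w' = A g (H w))
    (hQ : ∀ g w w', H w' = A g (H w) → Q' w' = Q' w) : ∃ ρ : G →* OGrp Q', ∀ g w, H ((ρ g).1 w) = A g (H w) := by
  choose act hact using hst
  obtain ⟨ρ, hρ⟩ := mkRep Q' act (fun w => hinj (by rw [hact, h1])) (fun g h w => hinj (by rw [hact, hact, hact, hmul]))
    (fun g v w => hinj (by rw [hact, map_add, map_add, hact, hact, hadd]))
    (fun g c w => hinj (by rw [hact, map_smul, map_smul, hact, hsmul]))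
    (fun g w => hQ g w _ (hact g w))
  exact ⟨ρ, fun g w => by rw [hρ, hact]⟩

section
variable {F K : Type*} [Field F] [Fintype F] [Field K] [Fintype K] [Algebra F K]

/-- conjugate transpose -/
noncomputable def st (F : Type*) [Field F] [Fintype F] {K : Type*} [Field K] [Algebra F K] {n : ℕ} (M : Matrix (Fin n) (Fin n) K) : Matrix (Fin n) (Fin n) K :=
  (M.map (bar F))ᵀ

lemma st_apply {n : ℕ} (M : Matrix (Fin n) (Fin n) K) (i j : Fin n) : st F M i j = bar F (M j i) := rfl

lemma st_mul {n : ℕ} (M N : Matrix (Fin n) (Fin n) K) : st F (M * N) = st F N * st F M := by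
  unfold st
  rw [← Matrix.transpose_mul]
  congr 1
  exact Matrix.map_mul (f := (bar F : K →ₐ[F] K).toRingHom)

lemma st_one {n : ℕ} : st F (1 : Matrix (Fin n) (Fin n) K) = 1 := by
  unfold st
  have : (1 : Matrix (Fin n) (Fin n) K).map (bar F : K →ₐ[F] K) = 1 := Matrix.map_one (bar F : K →ₐ[F] K) (map_zero _) (map_one _)
  rw [this, Matrix.transpose_one]

lemma st_st (hK : Fintype.card K = Fintype.card F ^ 2) {n : ℕ} (M : Matrix (Fin n) (Fin n) K) : st F (st F M) = M := by
  ext i j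
  rw [st_apply, st_apply, bar_bar hK]

lemma det_st {n : ℕ} (M : Matrix (Fin n) (Fin n) K) : (st F M).det = bar F M.det := by
  unfold st
  rw [Matrix.det_transpose]
  exact ((bar F : K →ₐ[F] K).toRingHom.map_det M).symm

/-- the Hermitian matrix of a vector -/
noncomputable def hermV (F : Type*) [Field F] [Fintype F] {K : Type*} [Field K] [Algebra F K] (θ : K) : ((Fin 1 ⊕ Fin 1) ⊕ Fin 2 → F) →ₗ[F] Matrix (Fin 2) (Fin 2) K where
  toFun v := !![algebraMap F K (v (.inl (.inl 0))), algebraMap F K (v (.inr 0)) - θ * algebraMap F K (v (.inr 1));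
    bar F (algebraMap F K (v (.inr 0)) - θ * algebraMap F K (v (.inr 1))), - algebraMap F K (v (.inl (.inr 0)))]
  map_add' v w := by
    ext i j; fin_cases i <;> fin_cases j <;> simp <;> ring
  map_smul' c v := by
    ext i j; fin_cases i <;> fin_cases j <;> simp [Algebra.smul_def] <;> ring

lemma hermV_apply (θ : K) (v : (Fin 1 ⊕ Fin 1) ⊕ Fin 2 → F) : hermV F θ v = !![algebraMap F K (v (.inl (.inl 0))), algebraMap F K (v (.inr 0)) - θ * algebraMap F K (v (.inr 1));
    bar F (algebraMap F K (v (.inr 0)) - θ * algebraMap F K (v (.inr 1))), - algebraMap F K (v (.inl (.inr 0)))] := rfl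

lemma hermV_inj (hK : Fintype.card K = Fintype.card F ^ 2) {θ : K} (hθ : ∀ x : F, algebraMap F K x ≠ θ) : Function.Injective (hermV F θ) := by
  intro v w h
  rw [hermV_apply, hermV_apply] at h
  have h00 := congrFun (congrFun h 0) 0
  have h01 := congrFun (congrFun h 0) 1
  have h11 := congrFun (congrFun h 1) 1
  simp only [Matrix.of_apply, Matrix.cons_val', Matrix.cons_val_zero, Matrix.cons_val_one] at h00 h01 h11
  have a1 := (algebraMap F K).injective h00
  have a2 := (algebraMap F K).injective (neg_injective h11)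
  have a3 := (theta_basis hK hθ).1 (a₁ := (v (.inr 0), v (.inr 1))) (a₂ := (w (.inr 0), w (.inr 1))) h01
  rw [Prod.mk.injEq] at a3
  ext k
  rcases k with (k | k) | k
  · fin_cases k; exact a1
  · fin_cases k; exact a2
  · fin_cases k
    · exact a3.1
    · exact a3.2

lemma hermV_herm (hK : Fintype.card K = Fintype.card F ^ 2) (θ : K) (v : (Fin 1 ⊕ Fin 1) ⊕ Fin 2 → F) : st F (hermV F θ v) = hermV F θ v := by
  rw [hermV_apply]
  ext i j
  rw [st_apply]
  fin_cases i <;> fin_cases j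
  · exact bar_alg _
  · exact bar_bar hK _
  · rfl
  · show bar F (- algebraMap F K _) = - algebraMap F K _
    rw [map_neg, bar_alg]

lemma exists_hermV (hK : Fintype.card K = Fintype.card F ^ 2) {θ : K} (hθ : ∀ x : F, algebraMap F K x ≠ θ) {M : Matrix (Fin 2) (Fin 2) K}
    (hM : st F M = M) : ∃ v, hermV F θ v = M := by
  have e : ∀ i j, bar F (M j i) = M i j := fun i j => congrFun (congrFun hM i) j
  obtain ⟨x, hx⟩ := (bar_eq_self_iff (M 0 0)).1 (e 0 0)
  obtain ⟨y, hy⟩ := (bar_eq_self_iff (M 1 1)).1 (e 1 1)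
  obtain ⟨⟨z1, z2⟩, hz⟩ := (theta_basis hK hθ).2 (M 0 1)
  simp only at hz
  refine ⟨Sum.elim (Sum.elim (fun _ => x) (fun _ => -y)) ![z1, z2], ?_⟩
  rw [hermV_apply]
  ext i j
  fin_cases i <;> fin_cases j
  · exact hx
  · exact hz
  · show bar F (algebraMap F K z1 - θ * algebraMap F K z2) = M 1 0
    rw [hz]; exact e 1 0
  · show - algebraMap F K (-y) = M 1 1
    rw [map_neg, neg_neg, hy]

lemma Q_hermV {a b : F} (hab : ∀ z₁ z₂ : F, z₁ ^ 2 + a * z₁ * z₂ + b * z₂ ^ 2 = 0 → z₁ = 0 ∧ z₂ = 0) {θ : K}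
    (hθ : θ ^ 2 + algebraMap F K a * θ + algebraMap F K b = 0) (v : (Fin 1 ⊕ Fin 1) ⊕ Fin 2 → F) :
    algebraMap F K (qMinus 1 F a b v) = - (hermV F θ v).det := by
  rw [hermV_apply, Matrix.det_fin_two, coe_qMinus]
  unfold Cfsg.quadFormMinus
  simp only [Matrix.of_apply, Matrix.cons_val', Matrix.cons_val_zero, Matrix.cons_val_one, Fin.sum_univ_one]
  rw [norm_theta hab hθ]
  simp only [map_add, map_mul, Fin.isValue]
  ring

theorem exists_rho4m (hK : Fintype.card K = Fintype.card F ^ 2) {a b : F} (hab : ∀ z₁ z₂ : F, z₁ ^ 2 + a * z₁ * z₂ + b * z₂ ^ 2 = 0 → z₁ = 0 ∧ z₂ = 0) {θ : K}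
    (hθ : θ ^ 2 + algebraMap F K a * θ + algebraMap F K b = 0) :
    ∃ ρ : Matrix.SpecialLinearGroup (Fin 2) K →* OGrp (qMinus 1 F a b),
    ∀ g w, hermV F θ ((ρ g).1 w) = (g : Matrix (Fin 2) (Fin 2) K) * hermV F θ w * st F (g : Matrix (Fin 2) (Fin 2) K) := by
  obtain ⟨h1, h2, h3⟩ := theta_bar hab hθ
  refine mkRepInj _ (hermV F θ) (hermV_inj hK h1) (fun (g : Matrix.SpecialLinearGroup (Fin 2) K) M => (g : Matrix (Fin 2) (Fin 2) K) * M * st F (g : Matrix (Fin 2) (Fin 2) K)) ?_ ?_ ?_ ?_ ?_ ?_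
  · intro m
    rw [Matrix.SpecialLinearGroup.coe_one, st_one, one_mul, mul_one]
  · intro g h m
    rw [Matrix.SpecialLinearGroup.coe_mul, st_mul]
    simp only [Matrix.mul_assoc]
  · intro g v w
    rw [Matrix.mul_add, Matrix.add_mul]
  · intro g c w
    rw [Matrix.mul_smul, Matrix.smul_mul]
  · intro g w
    apply exists_hermV hK h1
    rw [st_mul, st_mul, st_st hK, hermV_herm hK, Matrix.mul_assoc]
  · intro g w w' h
    apply (algebraMap F K).injective
    rw [Q_hermV hab hθ, Q_hermV hab hθ, h, Matrix.det_mul, Matrix.det_mul, det_st, Matrix.SpecialLinearGroup.det_coe, map_one, one_mul, mul_one]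

/-- the kernel of the action on Hermitian matrices -/
lemma herm_ker (hK : Fintype.card K = Fintype.card F ^ 2) {g : Matrix.SpecialLinearGroup (Fin 2) K}
    (h : ∀ M : Matrix (Fin 2) (Fin 2) K, st F M = M → (g : Matrix (Fin 2) (Fin 2) K) * M * st F (g : Matrix (Fin 2) (Fin 2) K) = M) :
    g ∈ Subgroup.center (Matrix.SpecialLinearGroup (Fin 2) K) := by
  have hdet := g.2
  rw [Matrix.det_fin_two] at hdet
  obtain ⟨A, hA⟩ : ∃ A : Matrix (Fin 2) (Fin 2) K, A = g := ⟨_, rfl⟩
  have hdet' : A 0 0 * A 1 1 - A 0 1 * A 1 0 = 1 := by rw [hA]; exact hdet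
  rw [← hA] at h
  have e0 := h !![1, 0; 0, 0] (by ext i j; rw [st_apply]; fin_cases i <;> fin_cases j <;> simp)
  have e1 := h !![0, 0; 0, 1] (by ext i j; rw [st_apply]; fin_cases i <;> fin_cases j <;> simp)
  have e2 := h !![0, 1; 1, 0] (by ext i j; rw [st_apply]; fin_cases i <;> fin_cases j <;> simp)
  have c00 := congrFun (congrFun e0 0) 0
  have c11 := congrFun (congrFun e0 1) 1
  have d00 := congrFun (congrFun e1 0) 0
  have d11 := congrFun (congrFun e1 1) 1
  have f01 := congrFun (congrFun e2 0) 1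
  simp only [Matrix.mul_apply, Fin.sum_univ_two, st_apply, Matrix.of_apply, Matrix.cons_val', Matrix.cons_val_zero, Matrix.cons_val_one, mul_one, mul_zero, add_zero, zero_add, zero_mul, Fin.isValue] at c00 c11 d00 d11 f01
  have h10 : A 1 0 = 0 := by
    rcases mul_eq_zero.1 c11 with h | h
    · exact h
    · exact (map_eq_zero_iff _ (bar F : K →ₐ[F] K).toRingHom.injective).1 h
  have h01 : A 0 1 = 0 := by
    rcases mul_eq_zero.1 d00 with h | h
    · exact h
    · exact (map_eq_zero_iff _ (bar F : K →ₐ[F] K).toRingHom.injective).1 h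
  rw [h10, h01, mul_zero, sub_zero] at hdet'
  rw [h10, h01] at f01
  simp only [map_zero, mul_zero, zero_mul, zero_add, add_zero] at f01
  have hb : bar F (A 0 0) * bar F (A 1 1) = 1 := by rw [← map_mul, hdet', map_one]
  have hn : A 0 0 = A 1 1 := by
    have e3 : A 0 0 * bar F (A 0 0) * bar F (A 1 1) = bar F (A 1 1) := by rw [c00, one_mul]
    rw [mul_assoc, hb, mul_one] at e3
    have e4 : A 0 0 * A 0 0 = 1 := by
      have : A 0 0 * bar F (A 1 1) = 1 := f01
      rw [← e3] at this; exact this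
    have e5 : A 0 0 ≠ 0 := by rintro h; rw [h, mul_zero] at e4; exact zero_ne_one e4
    exact mul_left_cancel₀ e5 (by rw [e4, hdet'])
  rw [Matrix.SpecialLinearGroup.mem_center_iff]
  refine ⟨A 0 0, ?_, ?_⟩
  · rw [Fintype.card_fin, pow_two]; nth_rewrite 2 [hn]; exact hdet'
  · rw [← hA]
    ext i j
    fin_cases i <;> fin_cases j
    · simp
    · simpa using h01.symm
    · simpa using h10.symm
    · simpa using hn

end

end Cfsg.Agent.H22
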