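import Cfsg.Agent.LibH22Exc6
import Cfsg.Agent.LibH22POrd2

set_option autoImplicit false

/-! Exceptional isomorphisms: `Sp_4 → O_5` (seat helper22). -/

namespace Cfsg.Agent.H22

open Matrix

section
variable {F : Type*} [Field F]

/-- Construct a representation in an orthogonal group from an action. -/
theorem mkRep {G W : Type*} [Group G] [AddCommGroup W] [Module F W] (Q' : QuadraticForm F W) (act : G → W → W)
    (h1 : ∀ w, act 1 w = w) (hmul : ∀ g h w, act (g * h) w = act g (act h w))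
    (hadd : ∀ g v w, act g (v + w) = act g v + act g w) (hsmul : ∀ g (c : F) w, act g (c • w) = c • act g w)
    (hQ : ∀ g w, Q' (act g w) = Q' w) : ∃ ρ : G →* OGrp Q', ∀ g w, (ρ g).1 w = act g w := by
  refine ⟨{ toFun := fun g => ⟨{ toFun := act g, map_add' := hadd g, map_smul' := hsmul g, invFun := act g⁻¹, left_inv := fun w => ?_, right_inv := fun w => ?_ }, ?_⟩, map_one' := ?_, map_mul' := ?_ }, fun g w => rfl⟩
  · rw [← hmul, inv_mul_cancel, h1]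
  · rw [← hmul, mul_inv_cancel, h1]
  · intro w; exact hQ g w
  · apply og_ext
    intro w
    exact h1 w
  · intro g h
    apply og_ext
    intro w
    exact hmul g h w

lemma pf_det (A : Matrix (Fin 4) (Fin 4) F) (v : Fin 3 ⊕ Fin 3 → F) : pf (A * altM v * Aᵀ) = A.det * pf (altM v) := by
  have hd : A.det = A 0 0 * (A 1 1 * (A 2 2 * A 3 3 - A 2 3 * A 3 2) - A 1 2 * (A 2 1 * A 3 3 - A 2 3 * A 3 1) + A 1 3 * (A 2 1 * A 3 2 - A 2 2 * A 3 1))
      - A 0 1 * (A 1 0 * (A 2 2 * A 3 3 - A 2 3 * A 3 2) - A 1 2 * (A 2 0 * A 3 3 - A 2 3 * A 3 0) + A 1 3 * (A 2 0 * A 3 2 - A 2 2 * A 3 0))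
      + A 0 2 * (A 1 0 * (A 2 1 * A 3 3 - A 2 3 * A 3 1) - A 1 1 * (A 2 0 * A 3 3 - A 2 3 * A 3 0) + A 1 3 * (A 2 0 * A 3 1 - A 2 1 * A 3 0))
      - A 0 3 * (A 1 0 * (A 2 1 * A 3 2 - A 2 2 * A 3 1) - A 1 1 * (A 2 0 * A 3 2 - A 2 2 * A 3 0) + A 1 2 * (A 2 0 * A 3 1 - A 2 1 * A 3 0)) := by
    rw [Matrix.det_succ_row_zero, Fin.sum_univ_four, Matrix.det_fin_three, Matrix.det_fin_three, Matrix.det_fin_three, Matrix.det_fin_three]
    simp only [Matrix.submatrix_apply, Fin.succAbove, Fin.isValue, Fin.val_zero, Fin.val_one, Fin.val_two]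
    simp [Fin.succAbove, Fin.lt_def]
    ring
  rw [hd]
  unfold pf
  simp only [Matrix.mul_apply, Fin.sum_univ_four, Matrix.transpose_apply, altM, Matrix.of_apply, Matrix.cons_val]
  generalize A 0 0 = a00
  generalize A 0 1 = a01
  generalize A 0 2 = a02
  generalize A 0 3 = a03
  generalize A 1 0 = a10
  generalize A 1 1 = a11
  generalize A 1 2 = a12
  generalize A 1 3 = a13
  generalize A 2 0 = a20
  generalize A 2 1 = a21
  generalize A 2 2 = a22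
  generalize A 2 3 = a23
  generalize A 3 0 = a30
  generalize A 3 1 = a31
  generalize A 3 2 = a32
  generalize A 3 3 = a33
  ring

/-- the vector of the standard symplectic form -/
def jv (F : Type*) [Field F] : Fin 3 ⊕ Fin 3 → F := Sum.elim ![0, -1, 0] ![0, 1, 0]

/-- the reindexed matrix -/
def b4 (A : Matrix (Fin 2 ⊕ Fin 2) (Fin 2 ⊕ Fin 2) F) : Matrix (Fin 4) (Fin 4) F :=
  A.submatrix (finSumFinEquiv (m := 2) (n := 2)).symm (finSumFinEquiv (m := 2) (n := 2)).symm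

lemma b4_mul (A B : Matrix (Fin 2 ⊕ Fin 2) (Fin 2 ⊕ Fin 2) F) : b4 (A * B) = b4 A * b4 B := by
  unfold b4
  rw [Matrix.submatrix_mul_equiv]

lemma b4_one : b4 (1 : Matrix (Fin 2 ⊕ Fin 2) (Fin 2 ⊕ Fin 2) F) = 1 := by
  unfold b4
  rw [Matrix.submatrix_one_equiv]

lemma b4_transpose (A : Matrix (Fin 2 ⊕ Fin 2) (Fin 2 ⊕ Fin 2) F) : b4 Aᵀ = (b4 A)ᵀ := rfl

lemma b4_J : b4 (Matrix.J (Fin 2) F) = altM (jv F) := by
  have e0 : ((finSumFinEquiv (m := 2) (n := 2)).symm 0 : Fin 2 ⊕ Fin 2) = Sum.inl 0 := rfl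
  have e1 : ((finSumFinEquiv (m := 2) (n := 2)).symm 1 : Fin 2 ⊕ Fin 2) = Sum.inl 1 := rfl
  have e2 : ((finSumFinEquiv (m := 2) (n := 2)).symm 2 : Fin 2 ⊕ Fin 2) = Sum.inr 0 := rfl
  have e3 : ((finSumFinEquiv (m := 2) (n := 2)).symm 3 : Fin 2 ⊕ Fin 2) = Sum.inr 1 := rfl
  ext i j
  unfold b4
  rw [Matrix.submatrix_apply]
  fin_cases i <;> fin_cases j <;> simp [e0, e1, e2, e3, altM, jv, Matrix.J]

lemma b4_act {A : Matrix (Fin 2 ⊕ Fin 2) (Fin 2 ⊕ Fin 2) F} (hA : A ∈ Matrix.symplecticGroup (Fin 2) F) :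
    b4 A * altM (jv F) * (b4 A)ᵀ = altM (jv F) := by
  rw [← b4_J, ← b4_transpose, ← b4_mul, ← b4_mul]
  rw [SymplecticGroup.mem_iff] at hA
  rw [hA]

lemma b4_det {A : Matrix (Fin 2 ⊕ Fin 2) (Fin 2 ⊕ Fin 2) F} (hA : A ∈ Matrix.symplecticGroup (Fin 2) F) :
    (b4 A).det = 1 := by
  have h1 := pf_det (b4 A) (jv F)
  rw [b4_act hA] at h1
  have h2 : pf (altM (jv F)) = -1 := by
    simp [pf, altM, jv]
  rw [h2] at h1
  linear_combination h1

/-- embedding of the five-space -/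
def i5 (v : Unit ⊕ (Fin 2 ⊕ Fin 2) → F) : Fin 3 ⊕ Fin 3 → F :=
  Sum.elim ![v (.inr (.inl 0)), v (.inl ()), v (.inr (.inl 1))] ![v (.inr (.inr 0)), v (.inl ()), v (.inr (.inr 1))]

/-- projection to the five-space -/
def p5 (w : Fin 3 ⊕ Fin 3 → F) : Unit ⊕ (Fin 2 ⊕ Fin 2) → F :=
  Sum.elim (fun _ => w (.inl 1)) (Sum.elim ![w (.inl 0), w (.inl 2)] ![w (.inr 0), w (.inr 2)])

lemma p5_i5 (v : Unit ⊕ (Fin 2 ⊕ Fin 2) → F) : p5 (i5 v) = v := by
  ext k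
  rcases k with k | k | k
  · rfl
  · fin_cases k <;> rfl
  · fin_cases k <;> rfl

lemma i5_p5 {w : Fin 3 ⊕ Fin 3 → F} (hw : QuadraticMap.polar (qPlus 3 F) w (jv F) = 0) : i5 (p5 w) = w := by
  rw [polar_qPlus, Fin.sum_univ_three] at hw
  simp [jv] at hw
  have h : w (.inr 1) = w (.inl 1) := by linear_combination -hw
  ext k
  rcases k with k | k
  · fin_cases k <;> rfl
  · fin_cases k
    · rfl
    · exact h.symm
    · rfl

lemma polar_i5 (v : Unit ⊕ (Fin 2 ⊕ Fin 2) → F) : QuadraticMap.polar (qPlus 3 F) (i5 v) (jv F) = 0 := by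
  rw [polar_qPlus, Fin.sum_univ_three]
  simp [jv, i5]

lemma Q_i5 (v : Unit ⊕ (Fin 2 ⊕ Fin 2) → F) : qPlus 3 F (i5 v) = qOdd 2 F v := by
  rw [coe_qPlus, coe_qOdd]
  unfold Cfsg.quadFormPlus Cfsg.quadFormOdd
  rw [Fin.sum_univ_three, Fin.sum_univ_two]
  simp [i5]
  ring

lemma i5_add (v w : Unit ⊕ (Fin 2 ⊕ Fin 2) → F) : i5 (v + w) = i5 v + i5 w := by
  ext k
  rcases k with k | k <;> fin_cases k <;> rfl

lemma i5_smul (c : F) (v : Unit ⊕ (Fin 2 ⊕ Fin 2) → F) : i5 (c • v) = c • i5 v := by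
  ext k
  rcases k with k | k <;> fin_cases k <;> rfl

lemma p5_add (v w : Fin 3 ⊕ Fin 3 → F) : p5 (v + w) = p5 v + p5 w := by
  ext k
  rcases k with k | k | k
  · rfl
  · fin_cases k <;> rfl
  · fin_cases k <;> rfl

lemma p5_smul (c : F) (v : Fin 3 ⊕ Fin 3 → F) : p5 (c • v) = c • p5 v := by
  ext k
  rcases k with k | k | k
  · rfl
  · fin_cases k <;> rfl
  · fin_cases k <;> rfl

/-- the map to `SL_4` -/
def spSL : Matrix.symplecticGroup (Fin 2) F →* Matrix.SpecialLinearGroup (Fin 4) F where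
  toFun A := ⟨b4 A.1, b4_det A.2⟩
  map_one' := by
    apply sl_ext
    exact b4_one
  map_mul' A B := by
    apply sl_ext
    exact b4_mul _ _

lemma rho6_jv (A : Matrix.symplecticGroup (Fin 2) F) : (rho6 (spSL A)).1 (jv F) = jv F := by
  rw [rho6_apply]
  unfold act6
  have h := b4_act A.2
  have e : ((spSL A : Matrix.SpecialLinearGroup (Fin 4) F) : Matrix (Fin 4) (Fin 4) F) = b4 A.1 := rfl
  rw [e, h, coM_altM]

theorem exists_rho5 : ∃ ρ : Matrix.symplecticGroup (Fin 2) F →* OGrp (qOdd 2 F),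
    ∀ A w, i5 ((ρ A).1 w) = act6 (b4 A.1) (i5 w) := by
  have key : ∀ (A : Matrix.symplecticGroup (Fin 2) F) w, i5 (p5 ((rho6 (spSL A)).1 (i5 w))) = (rho6 (spSL A)).1 (i5 w) := by
    intro A w
    apply i5_p5
    have h1 := og_polar (rho6 (spSL A)) (i5 w) (jv F)
    rw [rho6_jv] at h1
    rw [h1, polar_i5]
  suffices H : ∃ ρ : Matrix.symplecticGroup (Fin 2) F →* OGrp (qOdd 2 F), ∀ A w, (ρ A).1 w = p5 ((rho6 (spSL A)).1 (i5 w)) by
    obtain ⟨ρ, hρ⟩ := H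
    refine ⟨ρ, fun A w => ?_⟩
    rw [hρ, key]
    rfl
  refine mkRep (qOdd 2 F) (fun (A : Matrix.symplecticGroup (Fin 2) F) w => p5 ((rho6 (spSL A)).1 (i5 w))) ?_ ?_ ?_ ?_ ?_
  · intro w
    have e : ((rho6 (spSL (1 : Matrix.symplecticGroup (Fin 2) F))).1 (i5 w)) = i5 w := by
      rw [map_one, map_one]; rfl
    rw [e, p5_i5]
  · intro g h w
    rw [key, map_mul, map_mul, og_mul_apply]
  · intro g v w
    rw [i5_add, map_add, p5_add]
  · intro g c w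
    rw [i5_smul, map_smul, p5_smul]
  · intro g w
    rw [← Q_i5, key, og_Q, Q_i5]

end

end Cfsg.Agent.H22
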