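import Cfsg.Agent.LibH22Exc
import Cfsg.Agent.LibH22SL

set_option autoImplicit false

/-! `SL_4 → O_6^+` (seat helper22). -/

namespace Cfsg.Agent.H22

open Matrix

section
variable {F : Type*} [Field F]

/-- alternating matrix attached to a vector -/
def altM (v : Fin 3 ⊕ Fin 3 → F) : Matrix (Fin 4) (Fin 4) F :=
  !![0, v (.inl 0), v (.inl 1), v (.inl 2);
    -v (.inl 0), 0, v (.inr 2), -v (.inr 1);
    -v (.inl 1), -v (.inr 2), 0, v (.inr 0);
    -v (.inl 2), v (.inr 1), -v (.inr 0), 0]

/-- coordinates of an alternating matrix -/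
def coM : Matrix (Fin 4) (Fin 4) F →ₗ[F] (Fin 3 ⊕ Fin 3 → F) where
  toFun M := Sum.elim ![M 0 1, M 0 2, M 0 3] ![M 2 3, -M 1 3, M 1 2]
  map_add' := by
    intro A B
    ext k
    rcases k with k | k <;> fin_cases k <;> simp <;> ring
  map_smul' := by
    intro c A
    ext k
    rcases k with k | k <;> fin_cases k <;> simp

lemma coM_altM (v : Fin 3 ⊕ Fin 3 → F) : coM (altM v) = v := by
  ext k
  rcases k with k | k <;> fin_cases k <;> simp [coM, altM]

/-- alternating matrices -/
def IsAltM (N : Matrix (Fin 4) (Fin 4) F) : Prop := (∀ i, N i i = 0) ∧ ∀ i j, N j i = - N i j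

lemma altM_coM {N : Matrix (Fin 4) (Fin 4) F} (hN : IsAltM N) : altM (coM N) = N := by
  ext i j
  fin_cases i <;> fin_cases j <;> simp [coM, altM, hN.1]
  · exact (hN.2 0 1).symm
  · exact (hN.2 0 2).symm
  · exact (hN.2 1 2).symm
  · exact (hN.2 0 3).symm
  · exact (hN.2 1 3).symm
  · exact (hN.2 2 3).symm

lemma isAltM_altM (v : Fin 3 ⊕ Fin 3 → F) : IsAltM (altM v) := by
  constructor
  · intro i; fin_cases i <;> simp [altM]
  · intro i j; fin_cases i <;> fin_cases j <;> simp [altM]

lemma isAltM_conj (g : Matrix (Fin 4) (Fin 4) F) {N : Matrix (Fin 4) (Fin 4) F} (hN : IsAltM N) : IsAltM (g * N * gᵀ) := by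
  rw [← altM_coM hN]
  constructor
  · intro i
    simp only [Matrix.mul_apply, Fin.sum_univ_four, Matrix.transpose_apply, altM]
    simp
    ring
  · intro i j
    simp only [Matrix.mul_apply, Fin.sum_univ_four, Matrix.transpose_apply, altM]
    simp
    ring

lemma altM_add (v w : Fin 3 ⊕ Fin 3 → F) : altM (v + w) = altM v + altM w := by
  ext i j; fin_cases i <;> fin_cases j <;> simp [altM] <;> ring

lemma altM_smul (c : F) (v : Fin 3 ⊕ Fin 3 → F) : altM (c • v) = c • altM v := by
  ext i j; fin_cases i <;> fin_cases j <;> simp [altM]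

/-- the action on vectors -/
def act6 (g : Matrix (Fin 4) (Fin 4) F) (v : Fin 3 ⊕ Fin 3 → F) : Fin 3 ⊕ Fin 3 → F := coM (g * altM v * gᵀ)

lemma act6_mul (g h : Matrix (Fin 4) (Fin 4) F) (v : Fin 3 ⊕ Fin 3 → F) : act6 (g * h) v = act6 g (act6 h v) := by
  unfold act6
  rw [altM_coM (isAltM_conj h (isAltM_altM v)), Matrix.transpose_mul]
  congr 1
  simp only [Matrix.mul_assoc]

lemma act6_one (v : Fin 3 ⊕ Fin 3 → F) : act6 1 v = v := by
  unfold act6
  rw [Matrix.one_mul, Matrix.transpose_one, Matrix.mul_one, coM_altM]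

lemma tv_apply (N : Matrix (Fin 4) (Fin 4) F) (i j : Fin 4) (c : F) (a b : Fin 4) :
    (Matrix.transvection i j c * N * (Matrix.transvection i j c)ᵀ) a b =
      N a b + (if a = i then c * N j b else 0) + (if b = i then c * N a j else 0) + (if a = i then (if b = i then c * c * N j j else 0) else 0) := by
  have h1 : ∀ (M : Matrix (Fin 4) (Fin 4) F) (a b : Fin 4), (Matrix.transvection i j c * M) a b = M a b + (if a = i then c * M j b else 0) := by
    intro M a b
    by_cases h : a = i
    · subst h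
      rw [Matrix.transvection_mul_apply_same, if_pos rfl]
    · rw [Matrix.transvection_mul_apply_of_ne _ _ _ _ h, if_neg h, add_zero]
  have h2 : ∀ (M : Matrix (Fin 4) (Fin 4) F) (a b : Fin 4), (M * (Matrix.transvection i j c)ᵀ) a b = M a b + (if b = i then c * M a j else 0) := by
    intro M a b
    have : (M * (Matrix.transvection i j c)ᵀ) a b = (Matrix.transvection i j c * Mᵀ) b a := by
      rw [← Matrix.transpose_apply (Matrix.transvection i j c * Mᵀ), Matrix.transpose_mul, Matrix.transpose_transpose]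
    rw [this, h1]; rfl
  rw [h2, h1, h1]
  by_cases ha : a = i <;> by_cases hb : b = i <;> simp [ha, hb] <;> ring

/-- the Pfaffian form on alternating matrices -/
def pf (N : Matrix (Fin 4) (Fin 4) F) : F := N 0 1 * N 2 3 - N 0 2 * N 1 3 + N 0 3 * N 1 2

lemma Q_coM (N : Matrix (Fin 4) (Fin 4) F) : Cfsg.quadFormPlus 3 F (coM N) = pf N := by
  unfold Cfsg.quadFormPlus pf coM
  simp [Fin.sum_univ_three]
  ring

lemma pf_transvection (i j : Fin 4) (hij : i ≠ j) (c : F) {N : Matrix (Fin 4) (Fin 4) F} (hN : IsAltM N) :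
    pf (Matrix.transvection i j c * N * (Matrix.transvection i j c)ᵀ) = pf N := by
  have e := hN.1
  have h10 := hN.2 0 1
  have h20 := hN.2 0 2
  have h30 := hN.2 0 3
  have h21 := hN.2 1 2
  have h31 := hN.2 1 3
  have h32 := hN.2 2 3
  unfold pf
  simp only [tv_apply]
  fin_cases i <;> fin_cases j <;> first | exact absurd rfl hij | skip
  all_goals
    simp only [Fin.zero_eta, Fin.mk_one, Fin.reduceFinMk, Fin.isValue, Fin.reduceEq, if_true, if_false, reduceIte, e, h10, h20, h30, h21, h31, h32, mul_zero, add_zero]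
    ring

lemma act6_Q_transvection (i j : Fin 4) (hij : i ≠ j) (c : F) (v : Fin 3 ⊕ Fin 3 → F) :
    Cfsg.quadFormPlus 3 F (act6 (Matrix.transvection i j c) v) = Cfsg.quadFormPlus 3 F v := by
  unfold act6
  rw [Q_coM, pf_transvection i j hij c (isAltM_altM v), ← Q_coM, coM_altM]

/-- the property of preserving the Pfaffian -/
def PresPf (g : Matrix.SpecialLinearGroup (Fin 4) F) : Prop :=
  ∀ N : Matrix (Fin 4) (Fin 4) F, IsAltM N → pf ((g : Matrix (Fin 4) (Fin 4) F) * N * (g : Matrix (Fin 4) (Fin 4) F)ᵀ) = pf N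

lemma presPf_mul (A B : Matrix.SpecialLinearGroup (Fin 4) F) (hA : PresPf A) (hB : PresPf B) : PresPf (A * B) := by
  intro N hN
  rw [Matrix.SpecialLinearGroup.coe_mul, Matrix.transpose_mul]
  have e : (A : Matrix (Fin 4) (Fin 4) F) * (B : Matrix (Fin 4) (Fin 4) F) * N * ((B : Matrix (Fin 4) (Fin 4) F)ᵀ * (A : Matrix (Fin 4) (Fin 4) F)ᵀ) = (A : Matrix (Fin 4) (Fin 4) F) * ((B : Matrix (Fin 4) (Fin 4) F) * N * (B : Matrix (Fin 4) (Fin 4) F)ᵀ) * (A : Matrix (Fin 4) (Fin 4) F)ᵀ := by
    simp only [Matrix.mul_assoc]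
  rw [e, hA _ (isAltM_conj _ hN), hB N hN]

lemma presPf_tr (i j : Fin 4) (h : i ≠ j) (c : F) : PresPf (SpecialLinearGroup.transvection h c : Matrix.SpecialLinearGroup (Fin 4) F) := by
  intro N hN
  have h1 : ((SpecialLinearGroup.transvection h c : Matrix.SpecialLinearGroup (Fin 4) F) : Matrix (Fin 4) (Fin 4) F) = Matrix.transvection i j c :=
    Matrix.SpecialLinearGroup.transvection_coe h c
  rw [h1]
  exact pf_transvection i j h c hN

lemma presPf_all (g : Matrix.SpecialLinearGroup (Fin 4) F) : PresPf g :=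
  SLn.transvection_induction PresPf presPf_tr presPf_mul g

lemma act6_Q (g : Matrix.SpecialLinearGroup (Fin 4) F) (v : Fin 3 ⊕ Fin 3 → F) :
    Cfsg.quadFormPlus 3 F (act6 (g : Matrix (Fin 4) (Fin 4) F) v) = Cfsg.quadFormPlus 3 F v := by
  unfold act6
  rw [Q_coM, presPf_all g _ (isAltM_altM v), ← Q_coM, coM_altM]

/-- the representation -/
noncomputable def rho6 : Matrix.SpecialLinearGroup (Fin 4) F →* OGrp (qPlus 3 F) where
  toFun g := ⟨{ toFun := fun v => act6 (g : Matrix (Fin 4) (Fin 4) F) v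
                map_add' := fun v w => by unfold act6; rw [altM_add, Matrix.mul_add, Matrix.add_mul, map_add]
                map_smul' := fun c v => by unfold act6; rw [altM_smul, Matrix.mul_smul, Matrix.smul_mul, map_smul]; rfl
                invFun := fun v => act6 ((g⁻¹ : Matrix.SpecialLinearGroup (Fin 4) F) : Matrix (Fin 4) (Fin 4) F) v
                left_inv := fun v => by
                  show act6 _ (act6 _ v) = v
                  rw [← act6_mul, ← Matrix.SpecialLinearGroup.coe_mul, inv_mul_cancel, Matrix.SpecialLinearGroup.coe_one, act6_one]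
                right_inv := fun v => by
                  show act6 _ (act6 _ v) = v
                  rw [← act6_mul, ← Matrix.SpecialLinearGroup.coe_mul, mul_inv_cancel, Matrix.SpecialLinearGroup.coe_one, act6_one] }, by
    intro v
    show (qPlus 3 F) (act6 (g : Matrix (Fin 4) (Fin 4) F) v) = (qPlus 3 F) v
    rw [coe_qPlus]; exact act6_Q g v⟩
  map_one' := by
    apply og_ext
    intro v
    show act6 ((1 : Matrix.SpecialLinearGroup (Fin 4) F) : Matrix (Fin 4) (Fin 4) F) v = v
    rw [Matrix.SpecialLinearGroup.coe_one, act6_one]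
  map_mul' g h := by
    apply og_ext
    intro v
    show act6 ((g * h : Matrix.SpecialLinearGroup (Fin 4) F) : Matrix (Fin 4) (Fin 4) F) v = _
    rw [Matrix.SpecialLinearGroup.coe_mul, act6_mul]; rfl

lemma rho6_apply (g : Matrix.SpecialLinearGroup (Fin 4) F) (v : Fin 3 ⊕ Fin 3 → F) :
    (rho6 g).1 v = act6 (g : Matrix (Fin 4) (Fin 4) F) v := rfl

end

end Cfsg.Agent.H22
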