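import Mathlib
import Cfsg.Agent.LibH22J1

/-! Square-root counting in `SL₂ ∘ SL₂ . 2` (helper22). -/

set_option autoImplicit false
set_option linter.all false

namespace CfsgLib.H22J

open Subgroup

structure SW {G : Type*} [Group G] (L₁ L₂ : Subgroup G) (j n : G) : Prop where
  q1 : QS L₁ j
  q2 : QS L₂ j
  hc : ∀ x ∈ L₁, ∀ y ∈ L₂, x * y = y * x
  hm : L₁ ⊓ L₂ = Subgroup.zpowers j
  hC : ∀ g : G, g * j = j * g → g ∈ L₁ ⊔ L₂ ∨ n⁻¹ * g ∈ L₁ ⊔ L₂
  hn2 : n * n = j
  s1 : ∀ a ∈ L₁, n * a * n⁻¹ ∈ L₂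
  s2 : ∀ a ∈ L₂, n * a * n⁻¹ ∈ L₁
  nL : n ∉ L₁ ⊔ L₂

section
variable {G : Type*} [Group G] {L₁ L₂ : Subgroup G} {j n : G}

lemma SW.cj (h : SW L₁ L₂ j n) {g : G} (hg : g ∈ L₁ ⊔ L₂) : g * j = j * g := by
  obtain ⟨a, ha, b, hb, rfl⟩ := (mem_sup_comm h.hc).1 hg
  rw [mul_assoc, h.q2.cen b hb, ← mul_assoc, h.q1.cen a ha, mul_assoc]

lemma SW.nj (h : SW L₁ L₂ j n) : n * j = j * n := by rw [← h.hn2, mul_assoc]

lemma SW.ninv (h : SW L₁ L₂ j n) : n⁻¹ = j * n := by
  apply inv_eq_of_mul_eq_one_left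
  rw [mul_assoc, h.hn2, h.q1.jj]

/-- double twist -/
lemma SW.ss (h : SW L₁ L₂ j n) {a : G} (ha : a * j = j * a) : n * (n * a * n⁻¹) * n⁻¹ = a := by
  calc n * (n * a * n⁻¹) * n⁻¹ = (n * n) * a * (n * n)⁻¹ := by group
    _ = j * a * j⁻¹ := by rw [h.hn2]
    _ = a := by rw [← ha, mul_assoc, mul_inv_cancel, mul_one]

lemma SW.si (h : SW L₁ L₂ j n) {a : G} (ha : a * j = j * a) : n⁻¹ * a * n = n * a * n⁻¹ := by
  have h1 := h.ss ha
  calc n⁻¹ * a * n = n⁻¹ * (n * (n * a * n⁻¹) * n⁻¹) * n := by rw [h1]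
    _ = _ := by group

/-- no involutions outside `L₁L₂` -/
lemma SW.noinv (h : SW L₁ L₂ j n) {g : G} (hg : g * j = j * g) (hgg : g * g = 1) : g ∈ L₁ ⊔ L₂ := by
  rcases h.hC g hg with hL | hL
  · exact hL
  · exfalso
    obtain ⟨a, ha, b, hb, hab⟩ := (mem_sup_comm h.hc).1 hL
    have hgn : g = n * (a * b) := by rw [← hab]; group
    have sa := h.s1 a ha
    have sb := h.s2 b hb
    have aj := h.q1.cen a ha
    have bj := h.q2.cen b hb
    -- g * g = j * (s b * a) * (s a * b)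
    have e : g * g = j * ((n * b * n⁻¹) * a) * ((n * a * n⁻¹) * b) := by
      have e1 : (n * b * n⁻¹) * a * (n * a * n⁻¹) = (n * a * n⁻¹) * ((n * b * n⁻¹) * a) := h.hc _ (mul_mem sb ha) _ sa
      have e2 : n * n * (a * b) = (n * n) * (a * b) := rfl
      calc g * g = n * (a * b) * (n * (a * b)) := by rw [hgn]
        _ = (n * a * n⁻¹) * (n * b * n⁻¹) * ((n * n) * (a * b)) := by group
        _ = (n * a * n⁻¹) * (n * b * n⁻¹) * (j * (a * b)) := by rw [h.hn2]
        _ = (n * a * n⁻¹) * ((n * b * n⁻¹) * j) * (a * b) := by group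
        _ = (n * a * n⁻¹) * (j * (n * b * n⁻¹)) * (a * b) := by rw [h.q1.cen _ sb]
        _ = ((n * a * n⁻¹) * j) * (n * b * n⁻¹) * (a * b) := by group
        _ = (j * (n * a * n⁻¹)) * (n * b * n⁻¹) * (a * b) := by rw [h.q2.cen _ sa]
        _ = j * ((n * a * n⁻¹) * ((n * b * n⁻¹) * a)) * b := by group
        _ = j * ((n * b * n⁻¹) * a * (n * a * n⁻¹)) * b := by rw [e1]
        _ = _ := by group
    rw [e] at hgg
    set c := (n * b * n⁻¹) * a with hcdef
    set c' := (n * a * n⁻¹) * b with hc'def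
    have hcL : c ∈ L₁ := mul_mem sb ha
    have hc'L : c' ∈ L₂ := mul_mem sa hb
    have hcL2 : c ∈ L₂ := by
      have : c = j⁻¹ * c'⁻¹ := by
        have : j * (c * c') = 1 := by rw [← mul_assoc]; exact hgg
        have h3 : c * c' = j⁻¹ := (eq_inv_of_mul_eq_one_right this)
        rw [← h3]; group
      rw [this]; exact mul_mem (inv_mem h.q2.mem) (inv_mem hc'L)
    have hsc : n * c * n⁻¹ = b * (n * a * n⁻¹) := by
      rw [hcdef]
      calc n * (n * b * n⁻¹ * a) * n⁻¹ = (n * (n * b * n⁻¹) * n⁻¹) * (n * a * n⁻¹) := by group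
        _ = _ := by rw [h.ss bj]
    rcases inter h.q1.jj h.hm hcL hcL2 with h5 | h5
    · rw [h5] at hsc hgg
      have h6 : b * (n * a * n⁻¹) = 1 := by rw [← hsc]; group
      have h7 : c' = 1 := by
        rw [hc'def]; exact mul_eq_one_comm.1 h6
      rw [h7, mul_one, mul_one] at hgg
      exact h.q1.j1 hgg
    · rw [h5] at hsc hgg
      have h6 : b * (n * a * n⁻¹) = j := by
        rw [← hsc, h.nj, mul_assoc, mul_inv_cancel, mul_one]
      have h7 : c' = j := by
        have : b = j * (n * a * n⁻¹)⁻¹ := by rw [← h6]; group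
        rw [hc'def, this]
        have h8 := h.q2.cen _ sa
        calc n * a * n⁻¹ * (j * (n * a * n⁻¹)⁻¹) = (n * a * n⁻¹ * j) * (n * a * n⁻¹)⁻¹ := by group
          _ = (j * (n * a * n⁻¹)) * (n * a * n⁻¹)⁻¹ := by rw [h8]
          _ = j := by group
      rw [h7, h.q1.jj, one_mul] at hgg
      exact h.q1.j1 hgg

lemma SW.t_type (h : SW L₁ L₂ j n) {t : G} (htj : t * j = j * t) (htt : t * t = 1) (h1 : t ≠ 1) (h2 : t ≠ j) :
    ∃ x ∈ L₁, ∃ y ∈ L₂, t = x * y ∧ x * x = j ∧ y * y = j := by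
  rcases invol h.q1 h.q2 h.hc h.hm (h.noinv htj htt) htt with h3 | h3 | h3
  · exact absurd h3 h1
  · exact absurd h3 h2
  · exact h3

/-- if `j` is conjugate to some other commuting involution, then to `x * n x n⁻¹`, by an element that swaps `j` and `t`. -/
lemma SW.exists_m (h : SW L₁ L₂ j n) {g : G} (hg : Commute j (g * j * g⁻¹)) (hne : g * j * g⁻¹ ≠ j) :
    ∃ x ∈ L₁, x * x = j ∧ ∃ m : G, m * j * m⁻¹ = x * (n * x * n⁻¹) ∧ m * (x * (n * x * n⁻¹)) * m⁻¹ = j := by
  have hjj := h.q1.jj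
  have ht2 : (g * j * g⁻¹) * (g * j * g⁻¹) = 1 := by
    calc (g * j * g⁻¹) * (g * j * g⁻¹) = g * (j * j) * g⁻¹ := by group
      _ = 1 := by rw [hjj]; group
  have ht1 : g * j * g⁻¹ ≠ 1 := by
    intro h1; apply h.q1.j1
    calc j = g⁻¹ * (g * j * g⁻¹) * g := by group
      _ = 1 := by rw [h1]; group
  obtain ⟨x, hx, y, hy, hxy, hxx, hyy⟩ := h.t_type hg.symm.eq ht2 ht1 hne
  have sx := h.s1 x hx
  have sxx : (n * x * n⁻¹) * (n * x * n⁻¹) = j := by
    calc (n * x * n⁻¹) * (n * x * n⁻¹) = n * (x * x) * n⁻¹ := by group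
      _ = j := by rw [hxx, h.nj, mul_assoc, mul_inv_cancel, mul_one]
  obtain ⟨b, hb, hby⟩ := h.q2.conj y hy _ sx hyy sxx
  -- replace g by g' = b g
  set t := x * (n * x * n⁻¹) with htdef
  have hg' : (b * g) * j * (b * g)⁻¹ = t := by
    have e1 : b * x = x * b := (h.hc x hx b hb).symm
    calc (b * g) * j * (b * g)⁻¹ = b * (g * j * g⁻¹) * b⁻¹ := by group
      _ = b * (x * y) * b⁻¹ := by rw [hxy]
      _ = (b * x) * y * b⁻¹ := by group
      _ = x * (b * y * b⁻¹) := by rw [e1]; group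
      _ = t := by rw [hby]
  set k := b * g with hk
  have htL : t ∈ L₁ ⊔ L₂ := (mem_sup_comm h.hc).2 ⟨x, hx, _, sx, rfl⟩
  have htj : t * j = j * t := h.cj htL
  have htnj : t ≠ j := by
    intro h3
    have : x = j * (n * x * n⁻¹)⁻¹ := by rw [← h3, htdef]; group
    have hxL2 : x ∈ L₂ := by rw [this]; exact mul_mem h.q2.mem (inv_mem sx)
    rcases inter hjj h.hm hx hxL2 with h' | h'
    · apply h.q1.j1; rw [← hxx, h', mul_one]
    · apply h.q1.j1; rw [← hxx, h']; exact hjj
  -- t'' = k⁻¹ j k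
  have h1 : (k⁻¹ * j * k) * j = j * (k⁻¹ * j * k) := by
    rw [← hg'] at htj
    calc (k⁻¹ * j * k) * j = k⁻¹ * (j * (k * j * k⁻¹)) * k := by group
      _ = k⁻¹ * ((k * j * k⁻¹) * j) * k := by rw [htj]
      _ = _ := by group
  have h2 : (k⁻¹ * j * k) * (k⁻¹ * j * k) = 1 := by
    calc (k⁻¹ * j * k) * (k⁻¹ * j * k) = k⁻¹ * (j * j) * k := by group
      _ = 1 := by rw [hjj]; group
  have h3 : k⁻¹ * j * k ≠ 1 := by
    intro h1; apply h.q1.j1
    calc j = k * (k⁻¹ * j * k) * k⁻¹ := by group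
      _ = 1 := by rw [h1]; group
  have h4 : k⁻¹ * j * k ≠ j := by
    intro h5
    apply htnj
    rw [← hg']
    calc k * j * k⁻¹ = k * (k⁻¹ * j * k) * k⁻¹ := by rw [h5]
      _ = j := by group
  obtain ⟨x', hx', y', hy', hxy', hxx', hyy'⟩ := h.t_type h1 h2 h3 h4
  obtain ⟨l1, hl1, hl1'⟩ := h.q1.conj x' hx' x hx hxx' hxx
  obtain ⟨l2, hl2, hl2'⟩ := h.q2.conj y' hy' _ sx hyy' sxx
  set l := l1 * l2 with hl
  have hlt : l * (k⁻¹ * j * k) * l⁻¹ = t := by
    have e1 : l2 * x' = x' * l2 := (h.hc x' hx' l2 hl2).symm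
    have e2 : l1 * (l2 * y' * l2⁻¹) = (l2 * y' * l2⁻¹) * l1 := h.hc l1 hl1 _ (mul_mem (mul_mem hl2 hy') (inv_mem hl2))
    calc l * (k⁻¹ * j * k) * l⁻¹ = l1 * l2 * (x' * y') * (l1 * l2)⁻¹ := by rw [hxy']
      _ = l1 * (l2 * x') * y' * l2⁻¹ * l1⁻¹ := by group
      _ = l1 * (x' * l2) * y' * l2⁻¹ * l1⁻¹ := by rw [e1]
      _ = l1 * x' * l1⁻¹ * (l1 * (l2 * y' * l2⁻¹)) * l1⁻¹ := by group
      _ = l1 * x' * l1⁻¹ * ((l2 * y' * l2⁻¹) * l1) * l1⁻¹ := by rw [e2]
      _ = (l1 * x' * l1⁻¹) * (l2 * y' * l2⁻¹) := by group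
      _ = t := by rw [hl1', hl2']
  have hlj : l * j = j * l := h.cj ((mem_sup_comm h.hc).2 ⟨l1, hl1, l2, hl2, rfl⟩)
  refine ⟨x, hx, hxx, k * l⁻¹, ?_, ?_⟩
  · calc k * l⁻¹ * j * (k * l⁻¹)⁻¹ = k * (l⁻¹ * (j * l)) * k⁻¹ := by group
      _ = k * (l⁻¹ * (l * j)) * k⁻¹ := by rw [hlj]
      _ = k * j * k⁻¹ := by group
      _ = t := hg'
  · calc k * l⁻¹ * t * (k * l⁻¹)⁻¹ = k * (l⁻¹ * t * l) * k⁻¹ := by group
      _ = k * (l⁻¹ * (l * (k⁻¹ * j * k) * l⁻¹) * l) * k⁻¹ := by rw [hlt]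
      _ = j := by group

end

section Count
variable {G : Type*} [Group G] [Finite G] {L₁ L₂ : Subgroup G} {j n : G}

/-- the contradiction -/
lemma SW.no_m (h : SW L₁ L₂ j n) {x : G} (hx : x ∈ L₁) (hxx : x * x = j) {m : G}
    (hm1 : m * j * m⁻¹ = x * (n * x * n⁻¹)) (hm2 : m * (x * (n * x * n⁻¹)) * m⁻¹ = j) : False := by
  classical
  have hjj := h.q1.jj
  obtain ⟨y, hy⟩ : ∃ y, y = n * x * n⁻¹ := ⟨_, rfl⟩
  have hyL : y ∈ L₂ := by rw [hy]; exact h.s1 x hx
  have hyy : y * y = j := by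
    rw [hy]
    calc (n * x * n⁻¹) * (n * x * n⁻¹) = n * (x * x) * n⁻¹ := by group
      _ = j := by rw [hxx, h.nj, mul_assoc, mul_inv_cancel, mul_one]
  obtain ⟨t, ht⟩ : ∃ t, t = x * y := ⟨_, rfl⟩
  rw [← hy, ← ht] at hm1 hm2
  have hxy : x * y = y * x := h.hc x hx y hyL
  have hxj : x * j = j * x := h.q1.cen x hx
  have hyj : y * j = j * y := h.q2.cen y hyL
  have htL : t ∈ L₁ ⊔ L₂ := (mem_sup_comm h.hc).2 ⟨x, hx, y, hyL, ht⟩
  have htj : t * j = j * t := h.cj htL
  have htt : t * t = 1 := by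
    rw [ht]
    calc x * y * (x * y) = x * (y * x) * y := by group
      _ = x * (x * y) * y := by rw [hxy]
      _ = (x * x) * (y * y) := by group
      _ = 1 := by rw [hxx, hyy, hjj]
  have hjinv : j⁻¹ = j := inv_eq_of_mul_eq_one_left hjj
  -- x not in L₂
  have hxL2 : x ∉ L₂ := by
    intro h'
    rcases inter hjj h.hm hx h' with h' | h'
    · apply h.q1.j1; rw [← hxx, h', mul_one]
    · apply h.q1.j1; rw [← hxx, h']; exact hjj
  have hny : n⁻¹ * x * n = y := by rw [hy]; exact h.si hxj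
  have hny' : n⁻¹ * y * n = x := by rw [hy]; group
  -- D and its elements
  let R : G → Set G := fun s => {d | d * j = j * d ∧ d * t = t * d ∧ d * d = s}
  have hRcard : (R j).ncard = (R t).ncard := by
    apply Set.ncard_congr (fun d _ => m * d * m⁻¹)
    · rintro d ⟨h1, h2, h3⟩
      refine ⟨?_, ?_, ?_⟩
      · calc m * d * m⁻¹ * j = m * d * m⁻¹ * (m * t * m⁻¹) := by rw [hm2]
          _ = m * (d * t) * m⁻¹ := by group
          _ = m * (t * d) * m⁻¹ := by rw [h2]
          _ = (m * t * m⁻¹) * (m * d * m⁻¹) := by group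
          _ = _ := by rw [hm2]
      · calc m * d * m⁻¹ * t = m * d * m⁻¹ * (m * j * m⁻¹) := by rw [hm1]
          _ = m * (d * j) * m⁻¹ := by group
          _ = m * (j * d) * m⁻¹ := by rw [h1]
          _ = (m * j * m⁻¹) * (m * d * m⁻¹) := by group
          _ = _ := by rw [hm1]
      · calc m * d * m⁻¹ * (m * d * m⁻¹) = m * (d * d) * m⁻¹ := by group
          _ = m * j * m⁻¹ := by rw [h3]
          _ = t := hm1
    · intro a b _ _ hab
      exact mul_left_cancel (mul_right_cancel hab)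
    · rintro d ⟨h1, h2, h3⟩
      have hm1' : m⁻¹ * t * m = j := by rw [← hm1]; group
      have hm2' : m⁻¹ * j * m = t := by rw [← hm2]; group
      refine ⟨m⁻¹ * d * m, ⟨?_, ?_, ?_⟩, by group⟩
      · calc m⁻¹ * d * m * j = m⁻¹ * d * m * (m⁻¹ * t * m) := by rw [hm1']
          _ = m⁻¹ * (d * t) * m := by group
          _ = m⁻¹ * (t * d) * m := by rw [h2]
          _ = (m⁻¹ * t * m) * (m⁻¹ * d * m) := by group
          _ = _ := by rw [hm1']
      · calc m⁻¹ * d * m * t = m⁻¹ * d * m * (m⁻¹ * j * m) := by rw [hm2']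
          _ = m⁻¹ * (d * j) * m := by group
          _ = m⁻¹ * (j * d) * m := by rw [h1]
          _ = (m⁻¹ * j * m) * (m⁻¹ * d * m) := by group
          _ = _ := by rw [hm2']
      · calc m⁻¹ * d * m * (m⁻¹ * d * m) = m⁻¹ * (d * d) * m := by group
          _ = m⁻¹ * t * m := by rw [h3]
          _ = j := hm1'
  -- dichotomy for elements outside L
  have dich : ∀ d : G, d * j = j * d → d * t = t * d → d ∉ L₁ ⊔ L₂ → d⁻¹ * x * d = y ∨ d⁻¹ * x * d = j * y := by
    intro d hdj hdt hdL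
    have hL := (h.hC d hdj).resolve_left hdL
    obtain ⟨a, ha, b, hb, hab⟩ := (mem_sup_comm h.hc).1 hL
    have hd : d = n * (a * b) := by rw [← hab]; group
    have e1 : d⁻¹ * x * d = b⁻¹ * y * b := by
      have e : a⁻¹ * y * a = y := by
        rw [mul_assoc, ← h.hc a ha y hyL, ← mul_assoc, inv_mul_cancel, one_mul]
      calc d⁻¹ * x * d = b⁻¹ * (a⁻¹ * (n⁻¹ * x * n) * a) * b := by rw [hd]; group
        _ = b⁻¹ * (a⁻¹ * y * a) * b := by rw [hny]
        _ = _ := by rw [e]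
    have e2 : d⁻¹ * y * d = a⁻¹ * x * a := by
      have e : b⁻¹ * (a⁻¹ * x * a) * b = a⁻¹ * x * a := by
        have := h.hc _ (mul_mem (mul_mem (inv_mem ha) hx) ha) b hb
        rw [mul_assoc, this, ← mul_assoc, inv_mul_cancel, one_mul]
      calc d⁻¹ * y * d = b⁻¹ * (a⁻¹ * (n⁻¹ * y * n) * a) * b := by rw [hd]; group
        _ = b⁻¹ * (a⁻¹ * x * a) * b := by rw [hny']
        _ = _ := e
    have e3 : (d⁻¹ * x * d) * (d⁻¹ * y * d) = x * y := by
      calc (d⁻¹ * x * d) * (d⁻¹ * y * d) = d⁻¹ * (x * y * d) := by group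
        _ = d⁻¹ * (d * (x * y)) := by rw [← ht, hdt]
        _ = _ := by group
    have hPL : d⁻¹ * y * d ∈ L₁ := by rw [e2]; exact mul_mem (mul_mem (inv_mem ha) hx) ha
    have hQL : d⁻¹ * x * d ∈ L₂ := by rw [e1]; exact mul_mem (mul_mem (inv_mem hb) hyL) hb
    have e4 : x⁻¹ * (d⁻¹ * y * d) = y * (d⁻¹ * x * d)⁻¹ := by
      have hPQ := h.hc _ hPL _ hQL
      rw [eq_mul_inv_iff_mul_eq, mul_assoc, hPQ, e3]; group
    have h5 : x⁻¹ * (d⁻¹ * y * d) ∈ L₁ := mul_mem (inv_mem hx) hPL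
    have h6 : x⁻¹ * (d⁻¹ * y * d) ∈ L₂ := by rw [e4]; exact mul_mem hyL (inv_mem hQL)
    rcases inter hjj h.hm h5 h6 with h7 | h7
    · left
      rw [h7] at e4
      exact (mul_inv_eq_one.1 e4.symm).symm
    · right
      rw [h7] at e4
      have : y = j * (d⁻¹ * x * d) := by rw [e4]; group
      rw [this, ← mul_assoc, hjj, one_mul]
  -- right multiplication
  have mulx : ∀ d : G, ∀ u : G, d⁻¹ * x * d = u → (d * x) * (d * x) = d * d * u * x := by
    intro d u hu
    rw [← hu]; group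
  let B : G → Set G := fun s => {d | d ∈ R s ∧ d ∉ L₁ ⊔ L₂ ∧ d⁻¹ * x * d = j * y}
  let A : G → Set G := fun s => {d | d ∈ R s ∧ d ∈ L₁ ⊔ L₂}
  -- R t ⊆ A t ∪ B t
  have hRt : R t ⊆ A t ∪ B t := by
    intro d hd
    by_cases hL : d ∈ L₁ ⊔ L₂
    · left; exact ⟨hd, hL⟩
    · right
      refine ⟨hd, hL, ?_⟩
      rcases dich d hd.1 hd.2.1 hL with h1 | h1
      · exfalso
        apply hL
        have h2 : (d * x) * (d * x) = 1 := by
          rw [mulx d y h1, hd.2.2, mul_assoc, ← hxy, ← ht, htt]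
        have h3 : (d * x) * j = j * (d * x) := by
          rw [mul_assoc, hxj, ← mul_assoc, hd.1, mul_assoc]
        have h4 := h.noinv h3 h2
        have : d = (d * x) * x⁻¹ := by group
        rw [this]
        exact mul_mem h4 (inv_mem ((le_sup_left (b := L₂)) hx))
      · exact h1
  have hAt : (A t).ncard ≤ 4 := by
    by_cases hne : (A t).Nonempty
    · obtain ⟨d0, hd0⟩ := hne
      -- structure of elements of A t
      have str : ∀ d ∈ A t, ∃ a ∈ L₁, ∃ b ∈ L₂, d = a * b ∧ a * x = x * a ∧ b * y = y * b ∧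
          ((a * a = x ∧ b * b = y) ∨ (a * a = j * x ∧ b * b = j * y)) := by
        rintro d ⟨⟨hdj, hdt, hdd⟩, hdL⟩
        obtain ⟨a, ha, b, hb, rfl⟩ := (mem_sup_comm h.hc).1 hdL
        have e1 : a * a * (b * b) = x * y := by
          rw [← ht, ← hdd]
          calc a * a * (b * b) = a * (a * b) * b := by group
            _ = a * (b * a) * b := by rw [h.hc a ha b hb]
            _ = _ := by group
        have e2 : x⁻¹ * (a * a) = y * (b * b)⁻¹ := by
          rw [eq_mul_inv_iff_mul_eq, mul_assoc, e1]; group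
        have h5 : x⁻¹ * (a * a) ∈ L₁ := mul_mem (inv_mem hx) (mul_mem ha ha)
        have h6 : x⁻¹ * (a * a) ∈ L₂ := by rw [e2]; exact mul_mem hyL (inv_mem (mul_mem hb hb))
        rcases inter hjj h.hm h5 h6 with h7 | h7
        · have ha' : a * a = x := (inv_mul_eq_one.1 h7).symm
          have hb' : b * b = y := by rw [h7] at e2; exact (mul_inv_eq_one.1 e2.symm).symm
          refine ⟨a, ha, b, hb, rfl, ?_, ?_, Or.inl ⟨ha', hb'⟩⟩
          · rw [← ha']; group
          · rw [← hb']; group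
        · have ha' : a * a = j * x := by
            rw [inv_mul_eq_iff_eq_mul, hxj] at h7; exact h7
          have hb' : b * b = j * y := by
            rw [h7] at e2
            have : y = j * (b * b) := by rw [e2]; group
            rw [this, ← mul_assoc, hjj, one_mul]
          refine ⟨a, ha, b, hb, rfl, ?_, ?_, Or.inr ⟨ha', hb'⟩⟩
          · have hx' : x = j * (a * a) := by rw [ha', ← mul_assoc, hjj, one_mul]
            have haj := h.q1.cen a ha
            rw [hx', ← mul_assoc, haj]; group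
          · have hy' : y = j * (b * b) := by rw [hb', ← mul_assoc, hjj, one_mul]
            have hbj := h.q2.cen b hb
            rw [hy', ← mul_assoc, hbj]; group
      have hsub : A t ⊆ (fun s => d0 * s) '' ({1, j, t, j * t} : Set G) := by
        intro d hd
        refine ⟨d0⁻¹ * d, ?_, by group⟩
        obtain ⟨a0, ha0, b0, hb0, rfl, ha0x, hb0y, hcase0⟩ := str d0 hd0
        obtain ⟨a, ha, b, hb, rfl, hax, hby, hcase⟩ := str d hd
        -- u = a0⁻¹ a, v = b0⁻¹ b
        have haa : a0 * a = a * a0 := h.q1.comm x hx hxx a0 ha0 a ha ha0x hax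
        have hbb : b0 * b = b * b0 := h.q2.comm y hyL hyy b0 hb0 b hb hb0y hby
        have huL : a0⁻¹ * a ∈ L₁ := mul_mem (inv_mem ha0) ha
        have hvL : b0⁻¹ * b ∈ L₂ := mul_mem (inv_mem hb0) hb
        have hux : (a0⁻¹ * a) * x = x * (a0⁻¹ * a) := by
          have e : a0⁻¹ * x = x * a0⁻¹ := by
            rw [inv_mul_eq_iff_eq_mul, ← mul_assoc, ha0x]; group
          rw [mul_assoc, hax, ← mul_assoc, e, mul_assoc]
        have hvy : (b0⁻¹ * b) * y = y * (b0⁻¹ * b) := by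
          have e : b0⁻¹ * y = y * b0⁻¹ := by
            rw [inv_mul_eq_iff_eq_mul, ← mul_assoc, hb0y]; group
          rw [mul_assoc, hby, ← mul_assoc, e, mul_assoc]
        have huu : (a0⁻¹ * a) * (a0⁻¹ * a) = (a0 * a0)⁻¹ * (a * a) := by
          have e : a * a0⁻¹ = a0⁻¹ * a := by
            rw [mul_inv_eq_iff_eq_mul, mul_assoc, ← haa]; group
          calc (a0⁻¹ * a) * (a0⁻¹ * a) = a0⁻¹ * (a * a0⁻¹) * a := by group
            _ = a0⁻¹ * (a0⁻¹ * a) * a := by rw [e]
            _ = _ := by group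
        have hvv : (b0⁻¹ * b) * (b0⁻¹ * b) = (b0 * b0)⁻¹ * (b * b) := by
          have e : b * b0⁻¹ = b0⁻¹ * b := by
            rw [mul_inv_eq_iff_eq_mul, mul_assoc, ← hbb]; group
          calc (b0⁻¹ * b) * (b0⁻¹ * b) = b0⁻¹ * (b * b0⁻¹) * b := by group
            _ = b0⁻¹ * (b0⁻¹ * b) * b := by rw [e]
            _ = _ := by group
        have hprod : (a0 * b0)⁻¹ * (a * b) = (a0⁻¹ * a) * (b0⁻¹ * b) := by
          have e := h.hc _ huL b0⁻¹ (inv_mem hb0)
          calc (a0 * b0)⁻¹ * (a * b) = (b0⁻¹ * (a0⁻¹ * a)) * b := by group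
            _ = ((a0⁻¹ * a) * b0⁻¹) * b := by rw [e]
            _ = _ := by group
        rw [hprod]
        -- two cases
        have hcases : ((a0⁻¹ * a) * (a0⁻¹ * a) = 1 ∧ (b0⁻¹ * b) * (b0⁻¹ * b) = 1) ∨
            ((a0⁻¹ * a) * (a0⁻¹ * a) = j ∧ (b0⁻¹ * b) * (b0⁻¹ * b) = j) := by
          rw [huu, hvv]
          rcases hcase0 with ⟨p1, p2⟩ | ⟨p1, p2⟩ <;> rcases hcase with ⟨p3, p4⟩ | ⟨p3, p4⟩ <;> rw [p1, p2, p3, p4]
          · left; constructor <;> group
          · right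
            constructor
            · rw [← hxj]; group
            · rw [← hyj]; group
          · right
            constructor
            · rw [_root_.mul_inv_rev, hjinv, mul_assoc, ← hxj]; group
            · rw [_root_.mul_inv_rev, hjinv, mul_assoc, ← hyj]; group
          · left; constructor <;> group
        rcases hcases with ⟨p1, p2⟩ | ⟨p1, p2⟩
        · rcases h.q1.uniq _ huL p1 with p3 | p3 <;> rcases h.q2.uniq _ hvL p2 with p4 | p4 <;> rw [p3, p4]
          · left; rw [one_mul]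
          · right; left; rw [one_mul]
          · right; left; rw [mul_one]
          · left; exact hjj
        · have k1 : (a0⁻¹ * a) * x⁻¹ = 1 ∨ (a0⁻¹ * a) * x⁻¹ = j := by
            apply h.q1.uniq _ (mul_mem huL (inv_mem hx))
            have e : x⁻¹ * (a0⁻¹ * a) = (a0⁻¹ * a) * x⁻¹ := by
              rw [inv_mul_eq_iff_eq_mul, ← mul_assoc, ← hux]; group
            calc (a0⁻¹ * a) * x⁻¹ * ((a0⁻¹ * a) * x⁻¹) = (a0⁻¹ * a) * (x⁻¹ * (a0⁻¹ * a)) * x⁻¹ := by group
              _ = (a0⁻¹ * a) * ((a0⁻¹ * a) * x⁻¹) * x⁻¹ := by rw [e]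
              _ = ((a0⁻¹ * a) * (a0⁻¹ * a)) * (x * x)⁻¹ := by group
              _ = 1 := by rw [p1, hxx]; group
          have k2 : (b0⁻¹ * b) * y⁻¹ = 1 ∨ (b0⁻¹ * b) * y⁻¹ = j := by
            apply h.q2.uniq _ (mul_mem hvL (inv_mem hyL))
            have e : y⁻¹ * (b0⁻¹ * b) = (b0⁻¹ * b) * y⁻¹ := by
              rw [inv_mul_eq_iff_eq_mul, ← mul_assoc, ← hvy]; group
            calc (b0⁻¹ * b) * y⁻¹ * ((b0⁻¹ * b) * y⁻¹) = (b0⁻¹ * b) * (y⁻¹ * (b0⁻¹ * b)) * y⁻¹ := by group
              _ = (b0⁻¹ * b) * ((b0⁻¹ * b) * y⁻¹) * y⁻¹ := by rw [e]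
              _ = ((b0⁻¹ * b) * (b0⁻¹ * b)) * (y * y)⁻¹ := by group
              _ = 1 := by rw [p2, hyy]; group
          have k1' : (a0⁻¹ * a) = x ∨ (a0⁻¹ * a) = j * x := by
            rcases k1 with k | k
            · left; exact mul_inv_eq_one.1 k
            · right; rw [← k]; group
          have k2' : (b0⁻¹ * b) = y ∨ (b0⁻¹ * b) = j * y := by
            rcases k2 with k | k
            · left; exact mul_inv_eq_one.1 k
            · right; rw [← k]; group
          rcases k1' with p3 | p3 <;> rcases k2' with p4 | p4 <;> rw [p3, p4]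
          · right; right; left; exact ht.symm
          · right; right; right
            show x * (j * y) = j * t
            rw [← mul_assoc, hxj, mul_assoc, ht]
          · right; right; right
            show j * x * y = j * t
            rw [mul_assoc, ht]
          · right; right; left
            rw [ht]
            calc j * x * (j * y) = j * (x * j) * y := by group
              _ = j * (j * x) * y := by rw [hxj]
              _ = (j * j) * (x * y) := by group
              _ = x * y := by rw [hjj, one_mul]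
      have hfin : ({1, j, t, j * t} : Set G).ncard ≤ 4 := by
        have k1 := Set.ncard_insert_le (1 : G) ({j, t, j * t} : Set G)
        have k2 := Set.ncard_insert_le (j : G) ({t, j * t} : Set G)
        have k3 := Set.ncard_insert_le (t : G) ({j * t} : Set G)
        rw [Set.ncard_singleton] at k3
        omega
      calc (A t).ncard ≤ ((fun s => d0 * s) '' ({1, j, t, j * t} : Set G)).ncard := Set.ncard_le_ncard hsub (Set.toFinite _)
        _ ≤ ({1, j, t, j * t} : Set G).ncard := Set.ncard_image_le (Set.toFinite _)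
        _ ≤ 4 := hfin
    · rw [Set.not_nonempty_iff_eq_empty] at hne
      rw [hne, Set.ncard_empty]; omega
  have hBt : (B t).ncard ≤ (B j).ncard := by
    apply Set.ncard_le_ncard_of_injOn (fun d => d * x⁻¹)
    · rintro d ⟨⟨hdj, hdt, hdd⟩, hdL, hdx⟩
      have hxt : x * t = t * x := by
        rw [ht]; calc x * (x * y) = x * (y * x) := by rw [hxy]
          _ = _ := by group
      have e1 : (d * x⁻¹)⁻¹ * x * (d * x⁻¹) = j * y := by
        calc (d * x⁻¹)⁻¹ * x * (d * x⁻¹) = x * (d⁻¹ * x * d) * x⁻¹ := by group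
          _ = x * (j * y) * x⁻¹ := by rw [hdx]
          _ = (x * j) * y * x⁻¹ := by group
          _ = j * (x * y) * x⁻¹ := by rw [hxj]; group
          _ = j * y := by rw [hxy]; group
      have e2 : (d * x⁻¹) * j = j * (d * x⁻¹) := by
        have : x⁻¹ * j = j * x⁻¹ := by rw [inv_mul_eq_iff_eq_mul, ← mul_assoc, hxj]; group
        rw [mul_assoc, this, ← mul_assoc, hdj, mul_assoc]
      have e3 : (d * x⁻¹) * t = t * (d * x⁻¹) := by
        have : x⁻¹ * t = t * x⁻¹ := by rw [inv_mul_eq_iff_eq_mul, ← mul_assoc, hxt]; group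
        rw [mul_assoc, this, ← mul_assoc, hdt, mul_assoc]
      have e4 : (d * x⁻¹) * (d * x⁻¹) = j := by
        have e5 := mulx (d * x⁻¹) (j * y) e1
        have e6 : d * x⁻¹ * x = d := by group
        rw [e6, hdd] at e5
        -- t = (dx⁻¹)² * (j*y) * x
        have e7 : j * y * x = j * t := by rw [mul_assoc, ← hxy, ht]
        have e8 : t = (d * x⁻¹) * (d * x⁻¹) * (j * t) := by
          rw [← e7, e5]; group
        calc (d * x⁻¹) * (d * x⁻¹) = ((d * x⁻¹) * (d * x⁻¹) * (j * t)) * (j * t)⁻¹ := by group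
          _ = t * (j * t)⁻¹ := by rw [← e8]
          _ = j⁻¹ := by group
          _ = j := hjinv
      refine ⟨⟨e2, e3, e4⟩, ?_, e1⟩
      intro hL
      apply hdL
      have : d = (d * x⁻¹) * x := by group
      rw [this]; exact mul_mem hL ((le_sup_left (b := L₂)) hx)
    · intro a _ b _ hab
      exact mul_right_cancel hab
  have hRt' : (R t).ncard ≤ 4 + (B j).ncard := by
    calc (R t).ncard ≤ (A t ∪ B t).ncard := Set.ncard_le_ncard hRt (Set.toFinite _)
      _ ≤ (A t).ncard + (B t).ncard := Set.ncard_union_le _ _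
      _ ≤ 4 + (B j).ncard := by omega
  -- lower bound for R j
  have hxinL : x ∈ L₁ ⊔ L₂ := (le_sup_left (b := L₂)) hx
  have hyinL : y ∈ L₁ ⊔ L₂ := (le_sup_right (a := L₁)) hyL
  have hjinL : j ∈ L₁ ⊔ L₂ := (le_sup_left (b := L₂)) h.q1.mem
  let E : Set G := {x, j * x, y, j * y, n}
  have hE5 : E.ncard = 5 := by
    have hjne : ∀ g : G, g ≠ j * g := by
      intro g hg
      apply h.q1.j1
      exact (right_eq_mul.1 hg)
    have d1 : x ≠ j * x := hjne x
    have d2 : x ≠ y := by intro h'; exact hxL2 (h' ▸ hyL)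
    have d3 : x ≠ j * y := by intro h'; exact hxL2 (h' ▸ mul_mem h.q2.mem hyL)
    have d4 : x ≠ n := by intro h'; exact h.nL (h' ▸ hxinL)
    have d5 : j * x ≠ y := by
      intro h'
      apply d3; rw [← h', ← mul_assoc, hjj, one_mul]
    have d6 : j * x ≠ j * y := by intro h'; exact d2 (mul_left_cancel h')
    have d7 : j * x ≠ n := by intro h'; exact h.nL (h' ▸ mul_mem hjinL hxinL)
    have d8 : y ≠ j * y := hjne y
    have d9 : y ≠ n := by intro h'; exact h.nL (h' ▸ hyinL)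
    have d10 : j * y ≠ n := by intro h'; exact h.nL (h' ▸ mul_mem hjinL hyinL)
    show ({x, j * x, y, j * y, n} : Set G).ncard = 5
    rw [Set.ncard_insert_of_notMem, Set.ncard_insert_of_notMem, Set.ncard_insert_of_notMem, Set.ncard_insert_of_notMem,
      Set.ncard_singleton]
    · simpa using d10
    · simp [d8, d9]
    · simp only [Set.mem_insert_iff, Set.mem_singleton_iff, not_or]; exact ⟨d5, d6, d7⟩
    · simp only [Set.mem_insert_iff, Set.mem_singleton_iff, not_or]; exact ⟨d1, d2, d3, d4⟩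
  have hER : E ⊆ R j := by
    have hxt : x * t = t * x := by
      rw [ht]; calc x * (x * y) = x * (y * x) := by rw [hxy]
        _ = _ := by group
    have hyt : y * t = t * y := by
      rw [ht]; calc y * (x * y) = (y * x) * y := by group
        _ = _ := by rw [hxy]
    have hjt : j * t = t * j := htj.symm
    have hnt : n * t = t * n := by
      have e1 : n * x = y * n := by rw [hy]; group
      have e2 : n * y = x * n := by
        have := h.ss hxj
        rw [← hy] at this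
        calc n * y = (n * y * n⁻¹) * n := by group
          _ = x * n := by rw [this]
      rw [ht]
      calc n * (x * y) = (n * x) * y := by group
        _ = (y * n) * y := by rw [e1]
        _ = y * (n * y) := by group
        _ = y * (x * n) := by rw [e2]
        _ = (y * x) * n := by group
        _ = _ := by rw [hxy]
    rintro d (rfl | rfl | rfl | rfl | rfl)
    · exact ⟨hxj, hxt, hxx⟩
    · refine ⟨?_, ?_, ?_⟩
      · rw [mul_assoc, hxj]
      · rw [mul_assoc, hxt, ← mul_assoc, hjt, mul_assoc]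
      · calc j * x * (j * x) = j * (x * j) * x := by group
          _ = j * (j * x) * x := by rw [hxj]
          _ = (j * j) * (x * x) := by group
          _ = j := by rw [hjj, hxx, one_mul]
    · exact ⟨hyj, hyt, hyy⟩
    · refine ⟨?_, ?_, ?_⟩
      · rw [mul_assoc, hyj]
      · rw [mul_assoc, hyt, ← mul_assoc, hjt, mul_assoc]
      · calc j * y * (j * y) = j * (y * j) * y := by group
          _ = j * (j * y) * y := by rw [hyj]
          _ = (j * j) * (y * y) := by group
          _ = j := by rw [hjj, hyy, one_mul]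
    · exact ⟨h.nj, hnt, h.hn2⟩
  have hdisj : Disjoint E (B j) := by
    rw [Set.disjoint_left]
    rintro d hdE ⟨hdR, hdL, hdx⟩
    rcases hdE with rfl | rfl | rfl | rfl | rfl
    · exact hdL hxinL
    · exact hdL (mul_mem hjinL hxinL)
    · exact hdL hyinL
    · exact hdL (mul_mem hjinL hyinL)
    · rw [hny] at hdx
      apply h.q1.j1
      exact (right_eq_mul.1 hdx)
  have hRj : 5 + (B j).ncard ≤ (R j).ncard := by
    rw [← hE5, ← Set.ncard_union_eq hdisj (Set.toFinite _) (Set.toFinite _)]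
    apply Set.ncard_le_ncard _ (Set.toFinite _)
    exact Set.union_subset hER (fun d hd => hd.1)
  omega

end Count

end CfsgLib.H22J
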