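import Mathlib
import Cfsg.Agent.LibH22J1
import Cfsg.Agent.LibH22PSL2

/-! `SL₂` is centrally indecomposable (helper22). -/

set_option autoImplicit false
set_option linter.all false

namespace CfsgLib.H22J

open Subgroup

section SL
variable {F : Type*} [Field F]

def UU (g : S2 F) : Prop := g.1 1 0 = 0 ∧ g.1 1 1 = g.1 0 0

lemma UU.mul {a b : S2 F} (ha : UU a) (hb : UU b) : UU (a * b) := by
  obtain ⟨a1, a2⟩ := ha
  obtain ⟨b1, b2⟩ := hb
  constructor
  · rw [mul10, a1, b1]; ring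
  · rw [mul11, mul00, a1, b1, a2, b2]; ring

lemma UU.pm {a : S2 F} (h2 : (2 : F) ≠ 0) (ha : UU a) (h01 : a.1 0 1 = 0) : a = 1 ∨ a = -1 := by
  obtain ⟨a1, a2⟩ := ha
  have hd := det1 a
  rw [a1, a2, h01] at hd
  have h : a.1 0 0 * a.1 0 0 = 1 := by linear_combination hd
  rcases mul_self_eq_one_iff.1 h with h | h
  · left
    refine ext2 ?_ ?_ ?_ ?_
    · rw [h]; rfl
    · rw [h01]; rfl
    · rw [a1]; rfl
    · rw [a2, h]; rfl
  · right
    refine ext2 ?_ ?_ ?_ ?_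
    · rw [h]; rfl
    · rw [h01, neg01, one01, neg_zero]
    · rw [a1, neg10, one10, neg_zero]
    · rw [a2, h]; rfl

lemma UU.of_comm (h2 : (2 : F) ≠ 0) {a b : S2 F} (ha : UU a) (h01 : a.1 0 1 ≠ 0) (hab : a * b = b * a ∨ a * b = -(b * a)) : UU b := by
  obtain ⟨a1, a2⟩ := ha
  rcases hab with hab | hab
  · have e00 := congrArg (fun m : S2 F => m.1 0 0) hab
    have e01 := congrArg (fun m : S2 F => m.1 0 1) hab
    simp only [mul00, mul01, a1, a2] at e00 e01
    have h10 : b.1 1 0 = 0 := by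
      have : a.1 0 1 * b.1 1 0 = 0 := by linear_combination e00
      exact (mul_eq_zero.1 this).resolve_left h01
    refine ⟨h10, ?_⟩
    have : a.1 0 1 * (b.1 1 1 - b.1 0 0) = 0 := by linear_combination e01
    exact sub_eq_zero.1 ((mul_eq_zero.1 this).resolve_left h01)
  · exfalso
    have hd := det1 a
    rw [a1, a2] at hd
    have hp : a.1 0 0 ≠ 0 := by intro h; rw [h] at hd; simp at hd
    have e00 := congrArg (fun m : S2 F => m.1 0 0) hab
    have e10 := congrArg (fun m : S2 F => m.1 1 0) hab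
    simp only [neg00, neg10, mul00, mul10, a1, a2] at e00 e10
    have h10 : b.1 1 0 = 0 := by
      have : (2 * a.1 0 0) * b.1 1 0 = 0 := by linear_combination e10
      exact (mul_eq_zero.1 this).resolve_left (mul_ne_zero h2 hp)
    have h00 : b.1 0 0 = 0 := by
      have : (2 * a.1 0 0) * b.1 0 0 = 0 := by
        rw [h10] at e00; linear_combination e00
      exact (mul_eq_zero.1 this).resolve_left (mul_ne_zero h2 hp)
    have hd' := det1 b
    rw [h10, h00] at hd'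
    simp at hd'

/-- factors of `u` -/
lemma fac_u (h2 : (2 : F) ≠ 0) {a b u : S2 F} (hu : UU u) (hu1 : u.1 0 1 ≠ 0) (hab : a * b = b * a ∨ a * b = -(b * a)) (h : u = a * b) :
    UU a ∧ UU b := by
  have h1 : u * a = a * u ∨ u * a = -(a * u) := by
    rcases hab with hab | hab
    · left; rw [h]; calc a * b * a = a * (b * a) := by rw [mul_assoc]
        _ = _ := by rw [← hab]
    · right
      rw [h]
      calc a * b * a = a * (b * a) := by rw [mul_assoc]
        _ = -(a * -(b * a)) := by rw [mul_neg, neg_neg]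
        _ = -(a * (a * b)) := by rw [← hab]
  have h3 : u * b = b * u ∨ u * b = -(b * u) := by
    rcases hab with hab | hab
    · left; rw [h]; calc a * b * b = (b * a) * b := by rw [hab]
        _ = _ := by rw [mul_assoc]
    · right
      rw [h]
      calc a * b * b = -(b * a) * b := by rw [hab]
        _ = -(b * (a * b)) := by rw [neg_mul, mul_assoc]
  exact ⟨UU.of_comm h2 hu hu1 h1, UU.of_comm h2 hu hu1 h3⟩

lemma indec (h2 : (2 : F) ≠ 0) {A B : Set (S2 F)} (hAB : ∀ a ∈ A, ∀ b ∈ B, a * b = b * a ∨ a * b = -(b * a))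
    (hall : ∀ g : S2 F, ∃ a ∈ A, ∃ b ∈ B, g = a * b) : (∀ a ∈ A, a = 1 ∨ a = -1) ∨ (∀ b ∈ B, b = 1 ∨ b = -1) := by
  obtain ⟨u, u00, u01, u10, u11⟩ := exists_mk (F := F) 1 1 0 1 (by ring)
  have hu : UU u := ⟨u10, by rw [u11, u00]⟩
  have hu1 : u.1 0 1 ≠ 0 := by rw [u01]; exact one_ne_zero
  have hwU : ¬ UU (w : S2 F) := by
    rintro ⟨h1, -⟩
    rw [w10] at h1
    exact one_ne_zero h1
  obtain ⟨a, ha, b, hb, hab⟩ := hall u
  obtain ⟨Ua, Ub⟩ := fac_u h2 hu hu1 (hAB a ha b hb) hab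
  have hBA : ∀ b ∈ B, ∀ a ∈ A, b * a = a * b ∨ b * a = -(a * b) := by
    intro b hb a ha
    rcases hAB a ha b hb with h | h
    · left; exact h.symm
    · right; rw [h, neg_neg]
  have stepA : ∀ a0 ∈ A, UU a0 → a0.1 0 1 ≠ 0 → (∀ b ∈ B, b = 1 ∨ b = -1) := by
    intro a0 ha0 hU h01
    have hB : ∀ b ∈ B, UU b := fun b hb => UU.of_comm h2 hU h01 (hAB a0 ha0 b hb)
    by_contra hne
    push Not at hne
    obtain ⟨b0, hb0, hb1, hb2⟩ := hne
    have hb01 : b0.1 0 1 ≠ 0 := by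
      intro h
      rcases UU.pm h2 (hB b0 hb0) h with h' | h'
      · exact hb1 h'
      · exact hb2 h'
    have hA : ∀ a ∈ A, UU a := fun a ha => UU.of_comm h2 (hB b0 hb0) hb01 (hBA b0 hb0 a ha)
    obtain ⟨a', ha', b', hb', hw⟩ := hall w
    exact hwU (hw ▸ (hA a' ha').mul (hB b' hb'))
  have stepB : ∀ b0 ∈ B, UU b0 → b0.1 0 1 ≠ 0 → (∀ a ∈ A, a = 1 ∨ a = -1) := by
    intro b0 hb0 hU h01
    have hA : ∀ a ∈ A, UU a := fun a ha => UU.of_comm h2 hU h01 (hBA b0 hb0 a ha)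
    by_contra hne
    push Not at hne
    obtain ⟨a0, ha0, ha1, ha2⟩ := hne
    have ha01 : a0.1 0 1 ≠ 0 := by
      intro h
      rcases UU.pm h2 (hA a0 ha0) h with h' | h'
      · exact ha1 h'
      · exact ha2 h'
    have hB : ∀ b ∈ B, UU b := fun b hb => UU.of_comm h2 (hA a0 ha0) ha01 (hAB a0 ha0 b hb)
    obtain ⟨a', ha', b', hb', hw⟩ := hall w
    exact hwU (hw ▸ (hA a' ha').mul (hB b' hb'))
  by_cases h01 : a.1 0 1 = 0
  · by_cases h01' : b.1 0 1 = 0
    · exfalso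
      apply hu1
      rw [hab, mul01, h01, h01']
      ring
    · left; exact stepB b hb Ub h01'
  · right; exact stepA a ha Ua h01

end SL

section Grp
variable {G : Type*} [Group G]

/-- central indecomposability as an abstract property -/
def Ind (L : Subgroup G) (j : G) : Prop :=
  ∀ A B : Set G, A ⊆ L → B ⊆ L → (∀ a ∈ A, ∀ b ∈ B, a * b = b * a ∨ a * b = b * a * j) →
    (∀ g ∈ L, ∃ a ∈ A, ∃ b ∈ B, g = a * b) → (∀ a ∈ A, a = 1 ∨ a = j) ∨ (∀ b ∈ B, b = 1 ∨ b = j)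

lemma Ind.of_equiv {F : Type*} [Field F] [Fintype F] (hF : Odd (Fintype.card F))
    {L : Subgroup G} (e : ↥L ≃* Matrix.SpecialLinearGroup (Fin 2) F) {j : G} (hj : orderOf j = 2) (hjL : j ∈ L) :
    Ind L j := by
  intro A B hA hB hAB hall
  have h2 := two_ne hF
  have hjj : j * j = 1 := by have := pow_orderOf_eq_one j; rw [hj, pow_two] at this; exact this
  have hj1 : j ≠ 1 := by intro h; rw [h, orderOf_one] at hj; omega
  have hej : e ⟨j, hjL⟩ = -1 := by
    have h1 : e ⟨j, hjL⟩ * e ⟨j, hjL⟩ = 1 := by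
      rw [← map_mul]
      have : (⟨j, hjL⟩ : ↥L) * ⟨j, hjL⟩ = 1 := Subtype.ext hjj
      rw [this, map_one]
    rcases sq_one h2 _ h1 with h | h
    · exfalso
      apply hj1
      have : (⟨j, hjL⟩ : ↥L) = 1 := by
        apply e.injective; rw [h, map_one]
      exact congrArg Subtype.val this
    · exact h
  have back : ∀ x (hx : x ∈ L), (e ⟨x, hx⟩ = 1 ∨ e ⟨x, hx⟩ = -1) → x = 1 ∨ x = j := by
    intro x hx h
    rcases h with h | h
    · left
      have : (⟨x, hx⟩ : ↥L) = 1 := by apply e.injective; rw [h, map_one]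
      exact congrArg Subtype.val this
    · right
      have : (⟨x, hx⟩ : ↥L) = ⟨j, hjL⟩ := by apply e.injective; rw [h, hej]
      exact congrArg Subtype.val this
  rcases indec h2 (A := {m | ∃ a, ∃ ha : a ∈ A, m = e ⟨a, hA ha⟩}) (B := {m | ∃ b, ∃ hb : b ∈ B, m = e ⟨b, hB hb⟩}) (by
    rintro _ ⟨a, ha, rfl⟩ _ ⟨b, hb, rfl⟩
    rcases hAB a ha b hb with h | h
    · left
      rw [← map_mul, ← map_mul]
      congr 1
      exact Subtype.ext h
    · right
      have : (⟨a, hA ha⟩ : ↥L) * ⟨b, hB hb⟩ = ⟨b, hB hb⟩ * ⟨a, hA ha⟩ * ⟨j, hjL⟩ := Subtype.ext h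
      rw [← map_mul, this, map_mul, map_mul, hej, mul_neg, mul_one]) (by
    intro g
    obtain ⟨a, ha, b, hb, hab⟩ := hall (e.symm g : ↥L) (e.symm g).2
    refine ⟨_, ⟨a, ha, rfl⟩, _, ⟨b, hb, rfl⟩, ?_⟩
    rw [← map_mul]
    apply e.symm.injective
    rw [e.symm_apply_apply]
    exact Subtype.ext hab) with h | h
  · left
    intro a ha
    exact back a (hA ha) (h _ ⟨a, ha, rfl⟩)
  · right
    intro b hb
    exact back b (hB hb) (h _ ⟨b, hb, rfl⟩)

variable {L₁ L₂ M₁ M₂ : Subgroup G} {j : G}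

/-- one side of the Krull-Schmidt argument: one of `M₁`, `M₂` is inside `L₂`. -/
lemma one_side (q1 : QS L₁ j) (i1 : Ind L₁ j) (hjL2 : j ∈ L₂) (hc : ∀ x ∈ L₁, ∀ y ∈ L₂, x * y = y * x)
    (hm : L₁ ⊓ L₂ = Subgroup.zpowers j) (hcM : ∀ x ∈ M₁, ∀ y ∈ M₂, x * y = y * x) (hsup : M₁ ⊔ M₂ = L₁ ⊔ L₂) :
    M₁ ≤ L₂ ∨ M₂ ≤ L₂ := by
  have hM1 : M₁ ≤ L₁ ⊔ L₂ := hsup ▸ le_sup_left
  have hM2 : M₂ ≤ L₁ ⊔ L₂ := hsup ▸ le_sup_right
  rcases i1 {a | a ∈ L₁ ∧ ∃ c ∈ L₂, a * c ∈ M₁} {b | b ∈ L₁ ∧ ∃ c ∈ L₂, b * c ∈ M₂} (fun a ha => ha.1) (fun b hb => hb.1) (by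
    rintro a ⟨ha, c, hcL, hac⟩ b ⟨hb, d, hdL, hbd⟩
    have h1 := hcM _ hac _ hbd
    -- a c b d = b d a c → a b c d = b a d c
    have e1 : a * b * (c * d) = b * a * (d * c) := by
      calc a * b * (c * d) = a * (b * c) * d := by group
        _ = a * (c * b) * d := by rw [hc b hb c hcL]
        _ = a * c * (b * d) := by group
        _ = b * d * (a * c) := h1
        _ = b * (d * a) * c := by group
        _ = b * (a * d) * c := by rw [hc a ha d hdL]
        _ = _ := by group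
    have e2 : (b * a)⁻¹ * (a * b) = (d * c) * (c * d)⁻¹ := by
      rw [eq_mul_inv_iff_mul_eq, mul_assoc, e1]; group
    have h5 : (b * a)⁻¹ * (a * b) ∈ L₁ := mul_mem (inv_mem (mul_mem hb ha)) (mul_mem ha hb)
    have h6 : (b * a)⁻¹ * (a * b) ∈ L₂ := by rw [e2]; exact mul_mem (mul_mem hdL hcL) (inv_mem (mul_mem hcL hdL))
    rcases inter q1.jj hm h5 h6 with h7 | h7
    · left; exact (inv_mul_eq_one.1 h7).symm
    · right; rw [inv_mul_eq_iff_eq_mul] at h7; exact h7) (by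
    intro g hg
    have hg' : g ∈ M₁ ⊔ M₂ := hsup ▸ (le_sup_left (b := L₂)) hg
    obtain ⟨m1, hm1, m2, hm2, hgm⟩ := (mem_sup_comm hcM).1 hg'
    obtain ⟨a, ha, c, hcL, rfl⟩ := (mem_sup_comm hc).1 (hM1 hm1)
    obtain ⟨b, hb, d, hdL, rfl⟩ := (mem_sup_comm hc).1 (hM2 hm2)
    have e1 : g = a * b * (c * d) := by
      rw [hgm]
      calc a * c * (b * d) = a * (c * b) * d := by group
        _ = a * (b * c) * d := by rw [hc b hb c hcL]
        _ = _ := by group
    have h5 : c * d ∈ L₁ := by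
      have : c * d = (a * b)⁻¹ * g := by rw [e1]; group
      rw [this]; exact mul_mem (inv_mem (mul_mem ha hb)) hg
    rcases inter q1.jj hm h5 (mul_mem hcL hdL) with h7 | h7
    · refine ⟨a, ⟨ha, c, hcL, hm1⟩, b, ⟨hb, d, hdL, hm2⟩, ?_⟩
      rw [e1, h7, mul_one]
    · refine ⟨a * j, ⟨mul_mem ha q1.mem, j * c, mul_mem hjL2 hcL, ?_⟩, b, ⟨hb, d, hdL, hm2⟩, ?_⟩
      · have : a * j * (j * c) = a * c := by
          calc a * j * (j * c) = a * (j * j) * c := by group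
            _ = _ := by rw [q1.jj, mul_one]
        rw [this]; exact hm1
      · rw [e1, h7, mul_assoc, q1.cen b hb]; group) with h | h
  · left
    intro m hm'
    obtain ⟨a, ha, c, hcL, rfl⟩ := (mem_sup_comm hc).1 (hM1 hm')
    rcases h a ⟨ha, c, hcL, hm'⟩ with h' | h'
    · rw [h', one_mul]; exact hcL
    · rw [h']; exact mul_mem hjL2 hcL
  · right
    intro m hm'
    obtain ⟨a, ha, c, hcL, rfl⟩ := (mem_sup_comm hc).1 (hM2 hm')
    rcases h a ⟨ha, c, hcL, hm'⟩ with h' | h'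
    · rw [h', one_mul]; exact hcL
    · rw [h']; exact mul_mem hjL2 hcL

end Grp

end CfsgLib.H22J
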