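import Mathlib

set_option autoImplicit false

namespace Cfsg.Agent.H22Kg

open Finset

/-- number of monic polynomials of degree `m` with non-zero constant term -/
def c (q : ℕ) : ℕ → ℕ
  | 0 => 1
  | (m + 1) => (q - 1) * q ^ m

/-- the count -/
def N (q : ℕ) : ℕ → ℕ → ℕ → ℕ
  | 0, _, n => if n = 0 then 1 else 0
  | (k + 1), j, n => ∑ m ∈ range (n + 1), if j * m ≤ n then c q m * N q k (j + 1) (n - j * m) else 0

theorem N_lt (q k j n : ℕ) (h : n < j) : N q (k + 1) j n = N q k (j + 1) n := by
  show (∑ m ∈ range (n + 1), if j * m ≤ n then c q m * N q k (j + 1) (n - j * m) else 0) = _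
  rw [Finset.sum_eq_single 0]
  · rw [if_pos (by omega), mul_zero, Nat.sub_zero]
    show 1 * _ = _
    rw [one_mul]
  · intro m _ hm
    rw [if_neg]
    intro h1
    have : j * 1 ≤ j * m := Nat.mul_le_mul_left j (by omega)
    omega
  · intro h1
    exact absurd (Finset.mem_range.mpr (by omega)) h1

/-- sum over a longer range -/
theorem N_ext (q k j n M : ℕ) (hj : 1 ≤ j) (h : n < M) :
    N q (k + 1) j n = ∑ m ∈ range M, if j * m ≤ n then c q m * N q k (j + 1) (n - j * m) else 0 := by
  show (∑ m ∈ range (n + 1), if j * m ≤ n then c q m * N q k (j + 1) (n - j * m) else 0) = _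
  refine Finset.sum_subset (Finset.range_mono (by omega)) (fun m _ hm => ?_)
  rw [if_neg]
  intro h1
  rw [Finset.mem_range, not_lt] at hm
  have : 1 * m ≤ j * m := Nat.mul_le_mul_right m hj
  omega

theorem N_rec (q k j n : ℕ) (hq : 1 ≤ q) (hj : 1 ≤ j) (h : j ≤ n) :
    N q (k + 1) j n + N q k (j + 1) (n - j) = N q k (j + 1) n + q * N q (k + 1) j (n - j) := by
  have h1 : N q (k + 1) j n = N q k (j + 1) n + ∑ m ∈ range (n + 1),
      (if j * (m + 1) ≤ n then c q (m + 1) * N q k (j + 1) (n - j * (m + 1)) else 0) := by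
    rw [N_ext q k j n (n + 1 + 1) hj (by omega), Finset.sum_range_succ', add_comm]
    rw [mul_zero, if_pos (Nat.zero_le _), Nat.sub_zero]
    show 1 * _ + _ = _
    rw [one_mul]
  have h2 : N q (k + 1) j (n - j) = ∑ m ∈ range (n + 1), (if j * m ≤ n - j then c q m * N q k (j + 1) (n - j - j * m) else 0) :=
    N_ext q k j (n - j) (n + 1) hj (by omega)
  have h3 : N q k (j + 1) (n - j) = ∑ m ∈ range (n + 1), (if m = 0 then N q k (j + 1) (n - j) else 0) := by
    rw [Finset.sum_ite_eq' (range (n + 1)) 0, if_pos (Finset.mem_range.mpr (by omega))]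
  rw [h1, h2]
  conv_lhs => rw [h3]
  rw [Finset.mul_sum, add_assoc, ← Finset.sum_add_distrib]
  congr 1
  refine Finset.sum_congr rfl (fun m _ => ?_)
  have e1 : j * (m + 1) ≤ n ↔ j * m ≤ n - j := by
    rw [Nat.mul_add, mul_one]; omega
  have e2 : n - j * (m + 1) = n - j - j * m := by
    rw [Nat.mul_add, mul_one]; omega
  by_cases hm : j * m ≤ n - j
  · rw [if_pos (e1.mpr hm), if_pos hm, e2]
    rcases m with _ | m
    · rw [if_pos rfl, mul_zero, Nat.sub_zero]
      show (q - 1) * q ^ 0 * _ + _ = q * (1 * _)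
      obtain ⟨w, rfl⟩ := Nat.exists_eq_add_of_le hq
      rw [Nat.add_sub_cancel_left, pow_zero]
      ring
    · rw [if_neg (by omega), add_zero]
      show (q - 1) * q ^ (m + 1) * _ = q * ((q - 1) * q ^ m * _)
      ring
  · have hm0 : m ≠ 0 := by
      rintro rfl
      rw [mul_zero] at hm
      omega
    rw [if_neg (fun h => hm (e1.mp h)), if_neg hm, if_neg hm0, mul_zero, add_zero]

theorem key (q : ℕ) (hq : 2 ≤ q) (k : ℕ) : ∀ (i n : ℕ),
    ((q : ℝ) ^ i - 1) * (∑ s ∈ range (n + 1), (N q k (i + 1) s : ℝ) / (q : ℝ) ^ s) + (N q k (i + 1) n : ℝ) / (q : ℝ) ^ n ≤ (q : ℝ) ^ i := by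
  have hQ : (2 : ℝ) ≤ q := by exact_mod_cast hq
  have hQ0 : (q : ℝ) ≠ 0 := by linarith
  induction k with
  | zero =>
    intro i n
    have h1 : ∀ s : ℕ, (N q 0 (i + 1) s : ℝ) / (q : ℝ) ^ s = if s = 0 then 1 else 0 := by
      intro s
      unfold N
      split_ifs with h
      · rw [h]; simp
      · simp
    rw [Finset.sum_congr rfl (fun s _ => h1 s), h1, Finset.sum_ite_eq' (range (n + 1)) 0, if_pos (Finset.mem_range.mpr (by omega))]
    split_ifs
    · linarith
    · linarith
  | succ k ih =>
    intro i n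
    set b : ℕ → ℝ := fun s => (N q k (i + 1 + 1) s : ℝ) / (q : ℝ) ^ s with hb
    set a : ℕ → ℝ := fun s => (N q (k + 1) (i + 1) s : ℝ) / (q : ℝ) ^ s with ha
    set B : ℕ → ℝ := fun n => ∑ s ∈ range (n + 1), b s with hB
    set A : ℕ → ℝ := fun n => ∑ s ∈ range (n + 1), a s with hA
    set y : ℝ := (q : ℝ) ^ i with hy
    have hy0 : 0 < y := by rw [hy]; positivity
    have hb0 : ∀ s, 0 ≤ b s := fun s => by rw [hb]; positivity
    have ih' : ∀ n, (q * y - 1) * B n + b n ≤ q * y := by
      intro n
      have := ih (i + 1) n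
      rw [pow_succ'] at this
      exact this
    have hlt : ∀ s, s < i + 1 → a s = b s := by
      intro s hs
      simp only [ha, hb]
      rw [N_lt q k (i + 1) s hs]
    have hrec : ∀ s, a (s + (i + 1)) = b (s + (i + 1)) + a s / y - b s / (q * y) := by
      intro s
      simp only [ha, hb]
      have h1 := N_rec q k (i + 1) (s + (i + 1)) (by omega) (by omega) (by omega)
      rw [Nat.add_sub_cancel] at h1
      have h2 : (N q (k + 1) (i + 1) (s + (i + 1)) : ℝ) = N q k (i + 1 + 1) (s + (i + 1)) + q * N q (k + 1) (i + 1) s - N q k (i + 1 + 1) s := by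
        have : ((N q (k + 1) (i + 1) (s + (i + 1)) + N q k (i + 1 + 1) s : ℕ) : ℝ) = ((N q k (i + 1 + 1) (s + (i + 1)) + q * N q (k + 1) (i + 1) s : ℕ) : ℝ) := by
          rw [h1]
        push_cast at this
        linarith
      rw [h2]
      have h3 : (q : ℝ) ^ (s + (i + 1)) = q ^ s * (q * y) := by
        rw [hy]; ring
      have h4 : (q : ℝ) ^ s ≠ 0 := pow_ne_zero _ hQ0
      rw [h3]
      field_simp
    have hAlt : ∀ n, n < i + 1 → A n = B n := by
      intro n hn
      simp only [hA, hB]
      refine Finset.sum_congr rfl (fun s hs => hlt s ?_)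
      rw [Finset.mem_range] at hs; omega
    have hArec : ∀ n, A (n + (i + 1)) = B (n + (i + 1)) + A n / y - B n / (q * y) := by
      intro n
      have e1 : ∀ f : ℕ → ℝ, ∑ s ∈ range (n + (i + 1) + 1), f s = ∑ s ∈ range (i + 1), f s + ∑ s ∈ range (n + 1), f (s + (i + 1)) := by
        intro f
        rw [show n + (i + 1) + 1 = (i + 1) + (n + 1) by ring, Finset.sum_range_add]
        congr 1
        exact Finset.sum_congr rfl (fun s _ => by rw [add_comm])
      simp only [hA, hB]
      rw [e1 a, e1 b, Finset.sum_congr rfl (fun s _ => hrec s), Finset.sum_sub_distrib, Finset.sum_add_distrib,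
        Finset.sum_div, Finset.sum_div]
      have e2 : ∑ s ∈ range (i + 1), a s = ∑ s ∈ range (i + 1), b s :=
        Finset.sum_congr rfl (fun s hs => hlt s (Finset.mem_range.mp hs))
      rw [e2]; ring
    have hBmono : ∀ m n, m ≤ n → B m ≤ B n := by
      intro m n h
      exact Finset.sum_le_sum_of_subset_of_nonneg (Finset.range_mono (by omega)) (fun s _ _ => hb0 s)
    have hBb : ∀ n, b n ≤ B n := by
      intro n
      exact Finset.single_le_sum (f := b) (fun s _ => hb0 s) (Finset.mem_range.mpr (by omega))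
    -- D n - E n / q ≥ 0
    have main : ∀ n, 0 ≤ (y - (y - 1) * A n - a n) - (q * y - (q * y - 1) * B n - b n) / q := by
      intro n
      induction n using Nat.strong_induction_on with
      | _ n ihn =>
        rcases Nat.lt_or_ge n (i + 1) with h | h
        · rw [hAlt n h, hlt n h]
          have e1 : (y - (y - 1) * B n - b n) - (q * y - (q * y - 1) * B n - b n) / q = (1 - 1 / q) * (B n - b n) := by
            field_simp
            ring
          rw [e1]
          refine mul_nonneg ?_ (by have := hBb n; linarith)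
          have : (1 : ℝ) / q ≤ 1 := by
            rw [div_le_one (by linarith)]; linarith
          linarith
        · obtain ⟨m, rfl⟩ : ∃ m, n = m + (i + 1) := ⟨n - (i + 1), by omega⟩
          have h1 := ihn m (by omega)
          have hBs : B (m + (i + 1)) = B (m + i) + b (m + (i + 1)) := by
            simp only [hB]
            rw [show m + (i + 1) + 1 = (m + i + 1) + 1 by ring, Finset.sum_range_succ]
            rfl
          have e1 : (y - (y - 1) * A (m + (i + 1)) - a (m + (i + 1))) - (q * y - (q * y - 1) * B (m + (i + 1)) - b (m + (i + 1))) / q =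
              ((y - (y - 1) * A m - a m) - (q * y - (q * y - 1) * B m - b m) / q) / y + (1 - 1 / q) * (B (m + i) - B m) := by
            rw [hArec, hrec, hBs]
            field_simp
            ring
          rw [e1]
          refine add_nonneg (div_nonneg h1 hy0.le) (mul_nonneg ?_ (sub_nonneg.mpr (hBmono _ _ (by omega))))
          have : (1 : ℝ) / q ≤ 1 := by
            rw [div_le_one (by linarith)]; linarith
          linarith
    have h1 := main n
    have h2 : 0 ≤ (q * y - (q * y - 1) * B n - b n) / q := div_nonneg (by have := ih' n; linarith) (by linarith)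
    show (y - 1) * A n + a n ≤ y
    linarith

theorem N_le (q : ℕ) (hq : 2 ≤ q) (k n : ℕ) : N q k 1 n ≤ q ^ n := by
  have h := key q hq k 0 n
  have hQ : (2 : ℝ) ≤ q := by exact_mod_cast hq
  rw [pow_zero, sub_self, zero_mul, zero_add, zero_add, div_le_one (by positivity)] at h
  exact_mod_cast h

end Cfsg.Agent.H22Kg
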