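import Cfsg.Agent.LibH22Kg1
import Cfsg.Agent.LibCP2H13

set_option autoImplicit false

namespace Cfsg.Agent.H22Kg

open Polynomial

variable {F : Type*} [Field F] [Fintype F]

/-- good polynomials of given degree -/
def Gp (F : Type*) [Field F] (m : ℕ) : Type _ := {p : F[X] // p.Monic ∧ p.natDegree = m ∧ p.coeff 0 ≠ 0}

/-- sequences -/
def Sq (F : Type*) [Field F] (k j n : ℕ) : Type _ :=
  {e : Fin k → F[X] // (∀ i, (e i).Monic ∧ (e i).coeff 0 ≠ 0) ∧ ∑ i, (j + i.1) * (e i).natDegree = n}

theorem gp_card (m : ℕ) : Finite (Gp F m) ∧ Nat.card (Gp F m) ≤ c (Fintype.card F) m := by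
  classical
  rcases m with _ | m
  · have hs : Subsingleton (Gp F 0) := by
      constructor
      rintro ⟨p, hp1, hp2, -⟩ ⟨r, hr1, hr2, -⟩
      apply Subtype.ext
      show p = r
      rw [hp1.natDegree_eq_zero.mp hp2, hr1.natDegree_eq_zero.mp hr2]
    refine ⟨inferInstance, ?_⟩
    show _ ≤ 1
    exact Finite.card_le_one_iff_subsingleton.mpr hs
  · let f : Gp F (m + 1) → Fˣ × (Fin m → F) := fun p => (Units.mk0 _ p.2.2.2, fun i => p.1.coeff (i.1 + 1))
    have hf : Function.Injective f := by
      rintro ⟨p, hp1, hp2, hp3⟩ ⟨r, hr1, hr2, hr3⟩ h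
      apply Subtype.ext
      show p = r
      have h1 : p.coeff 0 = r.coeff 0 := congrArg (fun x : Fˣ × (Fin m → F) => (x.1 : F)) h
      have h2 : ∀ i : Fin m, p.coeff (i.1 + 1) = r.coeff (i.1 + 1) := fun i => congrFun (congrArg Prod.snd h) i
      ext t
      rcases t with _ | t
      · exact h1
      · rcases Nat.lt_or_ge t m with h3 | h3
        · exact h2 ⟨t, h3⟩
        · rcases Nat.eq_or_lt_of_le h3 with h4 | h4
          · have e1 : p.coeff (m + 1) = 1 := by rw [← hp2]; exact hp1
            have e2 : r.coeff (m + 1) = 1 := by rw [← hr2]; exact hr1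
            rw [← h4, e1, e2]
          · rw [Polynomial.coeff_eq_zero_of_natDegree_lt (by omega), Polynomial.coeff_eq_zero_of_natDegree_lt (by omega)]
    refine ⟨Finite.of_injective f hf, ?_⟩
    refine (Nat.card_le_card_of_injective f hf).trans (le_of_eq ?_)
    rw [Nat.card_prod, Nat.card_eq_fintype_card, Fintype.card_units, Nat.card_eq_fintype_card, Fintype.card_fun, Fintype.card_fin]
    rfl

theorem sq_card (k : ℕ) : ∀ j n, 1 ≤ j → Finite (Sq F k j n) ∧ Nat.card (Sq F k j n) ≤ N (Fintype.card F) k j n := by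
  classical
  induction k with
  | zero =>
    intro j n _
    have hs : Subsingleton (Sq F 0 j n) := ⟨fun a b => Subtype.ext (Subsingleton.elim _ _)⟩
    refine ⟨inferInstance, ?_⟩
    by_cases h : n = 0
    · show _ ≤ if n = 0 then 1 else 0
      rw [if_pos h]
      exact Finite.card_le_one_iff_subsingleton.mpr hs
    · have : IsEmpty (Sq F 0 j n) := ⟨fun a => h (by have := a.2.2; simpa using this.symm)⟩
      rw [Nat.card_of_isEmpty]
      exact Nat.zero_le _
  | succ k ih =>
    intro j n hj
    let X := Σ m : Fin (n + 1), {x : Gp F m.1 × Sq F k (j + 1) (n - j * m.1) // j * m.1 ≤ n}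
    haveI : ∀ m : Fin (n + 1), Finite (Gp F m.1) := fun m => (gp_card m.1).1
    haveI : ∀ m : Fin (n + 1), Finite (Sq F k (j + 1) (n - j * m.1)) := fun m => (ih (j + 1) (n - j * m.1) (by omega)).1
    have hdec : ∀ e : Sq F (k + 1) j n, j * (e.1 0).natDegree + ∑ i : Fin k, (j + 1 + i.1) * (e.1 i.succ).natDegree = n := by
      intro e
      have h1 := e.2.2
      rw [Fin.sum_univ_succ] at h1
      refine Eq.trans ?_ h1
      congr 1
      refine Finset.sum_congr rfl (fun i _ => ?_)
      rw [Fin.val_succ]; ring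
    let f : Sq F (k + 1) j n → X := fun e =>
      ⟨⟨(e.1 0).natDegree, by
          have := hdec e
          have h2 : 1 * (e.1 0).natDegree ≤ j * (e.1 0).natDegree := Nat.mul_le_mul_right _ hj
          omega⟩,
        ⟨(⟨e.1 0, (e.2.1 0).1, rfl, (e.2.1 0).2⟩, ⟨fun i => e.1 i.succ, fun i => e.2.1 i.succ, by
          have := hdec e
          show ∑ i : Fin k, (j + 1 + i.1) * (e.1 i.succ).natDegree = n - j * (e.1 0).natDegree
          omega⟩), by
          have := hdec e
          show j * (e.1 0).natDegree ≤ n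
          omega⟩⟩
    have hf : Function.Injective f := by
      intro e e' h
      let g : X → (Fin (k + 1) → F[X]) := fun x => Fin.cons x.2.1.1.1 x.2.1.2.1
      have hg : ∀ e, g (f e) = e.1 := by
        intro e
        funext i
        refine Fin.cases ?_ (fun i => ?_) i
        · rfl
        · rfl
      apply Subtype.ext
      rw [← hg e, ← hg e', h]
    haveI : Finite X := inferInstance
    refine ⟨Finite.of_injective f hf, ?_⟩
    refine (Nat.card_le_card_of_injective f hf).trans ?_
    show Nat.card X ≤ ∑ m ∈ Finset.range (n + 1), if j * m ≤ n then c (Fintype.card F) m * N (Fintype.card F) k (j + 1) (n - j * m) else 0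
    rw [Nat.card_sigma, Finset.sum_range]
    refine Finset.sum_le_sum (fun m _ => ?_)
    split_ifs with h
    · have e : {x : Gp F m.1 × Sq F k (j + 1) (n - j * m.1) // j * m.1 ≤ n} ≃ Gp F m.1 × Sq F k (j + 1) (n - j * m.1) :=
        Equiv.subtypeUnivEquiv (fun _ => h)
      rw [Nat.card_congr e, Nat.card_prod]
      exact Nat.mul_le_mul (gp_card m.1).2 (ih _ _ (by omega)).2
    · have : IsEmpty {x : Gp F m.1 × Sq F k (j + 1) (n - j * m.1) // j * m.1 ≤ n} := ⟨fun x => h x.2⟩
      rw [Nat.card_of_isEmpty]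

theorem sq_le (k n : ℕ) : Finite (Sq F k 1 n) ∧ Nat.card (Sq F k 1 n) ≤ Fintype.card F ^ n :=
  ⟨(sq_card k 1 n le_rfl).1, (sq_card k 1 n le_rfl).2.trans (N_le _ Fintype.one_lt_card k n)⟩

end Cfsg.Agent.H22Kg
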