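import Cfsg.Agent.LibH22Kg2
import Cfsg.Agent.LibTypH13
import Cfsg.Agent.LibClsH13

set_option autoImplicit false

namespace Cfsg.Agent.H22Kg

open Polynomial Module CfsgLib.Typ CfsgLib.Cls

universe u

/-- decomposition data -/
def Dec {F V : Type u} [Field F] [AddCommGroup V] [Module F V] (T : End F V) {n : ℕ} (ψ : Fin n → F[X]) : Prop :=
  ∃ (ι : Type u) (_ : Fintype ι) (p : ι → F[X]) (e : ι → ℕ),
    (∀ i, Irreducible (p i)) ∧ (∀ i, (p i).Monic) ∧ (∀ i, 0 < e i) ∧ (∀ i, e i ≤ n) ∧
    (∃ φ : V ≃ₗ[F] (∀ i, AdjoinRoot (p i ^ e i)), ∀ v i, φ (T v) i = AdjoinRoot.root (p i ^ e i) * φ v i) ∧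
    ∀ j : Fin n, ((Finset.univ.filter (fun i => e i = j.1 + 1)).val.map p).prod = ψ j

theorem mset_eq {F : Type u} [Field F] {M M' : Multiset F[X]} (h1 : ∀ x ∈ M, Irreducible x ∧ x.Monic)
    (h2 : ∀ x ∈ M', Irreducible x ∧ x.Monic) (h : M.prod = M'.prod) : M = M' := by
  classical
  have h3 := UniqueFactorizationMonoid.factors_unique (fun x hx => (h1 x hx).1) (fun x hx => (h2 x hx).1)
    (by rw [h]; exact Associated.refl _)
  exact Multiset.rel_eq.mp (h3.mono (fun a ha b hb hab =>
    Polynomial.eq_of_monic_of_associated (h1 a ha).2 (h2 b hb).2 hab))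

theorem kd_formula {F V : Type u} [Field F] [AddCommGroup V] [Module F V] [FiniteDimensional F V] {T : End F V} {n : ℕ}
    {ι : Type u} [Fintype ι] {p : ι → F[X]} {e : ι → ℕ}
    (hirr : ∀ i, Irreducible (p i)) (hmon : ∀ i, (p i).Monic) (he : ∀ i, 0 < e i) (hen : ∀ i, e i ≤ n)
    (φ : V ≃ₗ[F] (∀ i, AdjoinRoot (p i ^ e i))) (hφ : ∀ v i, φ (T v) i = AdjoinRoot.root (p i ^ e i) * φ v i)
    {f : F[X]} (hf : f.Monic) (hfi : Irreducible f) (k : ℕ) :
    by classical exact kd T f k = ∑ j : Fin n, (((Finset.univ.filter (fun i => e i = j.1 + 1)).val.map p).map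
      (fun x => if x = f then f.natDegree * min (j.1 + 1) k else 0)).sum := by
  classical
  rw [kd_eq hirr hmon φ hφ hf hfi k]
  have hmap : ∀ i ∈ (Finset.univ : Finset ι), (⟨e i - 1, by have := he i; have := hen i; omega⟩ : Fin n) ∈ (Finset.univ : Finset (Fin n)) :=
    fun i _ => Finset.mem_univ _
  rw [← Finset.sum_fiberwise_of_maps_to hmap]
  refine Finset.sum_congr rfl (fun j _ => ?_)
  rw [Multiset.map_map]
  have hfil : (Finset.univ.filter (fun i => (⟨e i - 1, by have := he i; have := hen i; omega⟩ : Fin n) = j)) =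
      Finset.univ.filter (fun i => e i = j.1 + 1) := by
    ext i
    simp only [Finset.mem_filter, Finset.mem_univ, true_and]
    rw [Fin.ext_iff]
    have := he i
    constructor
    · intro h; simp only at h; omega
    · intro h; simp only; omega
  rw [hfil]
  show _ = ∑ i ∈ Finset.univ.filter (fun i => e i = j.1 + 1), _
  refine Finset.sum_congr rfl (fun i hi => ?_)
  rw [Finset.mem_filter] at hi
  rw [hi.2]
  rfl

theorem conj_of_dec {F V V' : Type u} [Field F] [AddCommGroup V] [Module F V] [FiniteDimensional F V]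
    [AddCommGroup V'] [Module F V'] [FiniteDimensional F V'] {T : End F V} {T' : End F V'} {n : ℕ} {ψ : Fin n → F[X]}
    (h : Dec T ψ) (h' : Dec T' ψ) : ∃ ψ : V ≃ₗ[F] V', ∀ v, ψ (T v) = T' (ψ v) := by
  classical
  obtain ⟨ι, hι, p, e, hirr, hmon, he, hen, ⟨φ, hφ⟩, hψ⟩ := h
  obtain ⟨ι', hι', p', e', hirr', hmon', he', hen', ⟨φ', hφ'⟩, hψ'⟩ := h'
  refine conj_of_kd T T' (fun f hf hfi k => ?_)
  have e1 := kd_formula hirr hmon he hen φ hφ hf hfi k
  have e2 := kd_formula hirr' hmon' he' hen' φ' hφ' hf hfi k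
  refine (e1.trans ?_).trans e2.symm
  refine Finset.sum_congr rfl (fun j _ => ?_)
  have e3 : (Finset.univ.filter (fun i => e i = j.1 + 1)).val.map p = (Finset.univ.filter (fun i => e' i = j.1 + 1)).val.map p' := by
    refine mset_eq ?_ ?_ ((hψ j).trans (hψ' j).symm)
    · intro x hx
      obtain ⟨i, -, rfl⟩ := Multiset.mem_map.mp hx
      exact ⟨hirr i, hmon i⟩
    · intro x hx
      obtain ⟨i, -, rfl⟩ := Multiset.mem_map.mp hx
      exact ⟨hirr' i, hmon' i⟩
  rw [e3]

theorem exists_dec' {F V : Type u} [Field F] [AddCommGroup V] [Module F V] [FiniteDimensional F V] (T : End F V)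
    (hT : Function.Injective T) {n : ℕ} (hn : finrank F V = n) : ∃ s : Sq F n 1 n, Dec T s.1 := by
  classical
  obtain ⟨ι, hι, p, e, hirr, hmon, he, φ, hφ⟩ := CfsgLib.Str.exists_decomp T
  have hfr : ∑ i, e i * (p i).natDegree = n := by
    haveI : ∀ i, Module.Finite F (AdjoinRoot (p i ^ e i)) := fun i => (AdjoinRoot.powerBasis' ((hmon i).pow _)).finite
    rw [← hn, φ.finrank_eq, Module.finrank_pi_fintype]
    refine Finset.sum_congr rfl (fun i _ => ?_)
    rw [finrank_adjoinRoot ((hmon i).pow _), (hmon i).natDegree_pow]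
  have hdeg : ∀ i, 0 < (p i).natDegree := fun i => (hirr i).natDegree_pos
  have hen : ∀ i, e i ≤ n := by
    intro i
    have h1 : e i * (p i).natDegree ≤ n := by
      rw [← hfr]
      exact Finset.single_le_sum (f := fun i => e i * (p i).natDegree) (fun _ _ => Nat.zero_le _) (Finset.mem_univ i)
    have h2 : e i * 1 ≤ e i * (p i).natDegree := Nat.mul_le_mul_left _ (hdeg i)
    omega
  have hc : ∀ i, (p i).coeff 0 ≠ 0 := by
    intro i h0
    have hX : p i = X := by
      have h1 : X ∣ p i := Polynomial.X_dvd_iff.mpr h0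
      have h2 : Associated X (p i) := Polynomial.irreducible_X.associated_of_dvd (hirr i) h1
      exact (Polynomial.eq_of_monic_of_associated Polynomial.monic_X (hmon i) h2).symm
    have h3 := kd_eq hirr hmon φ hφ (f := X) Polynomial.monic_X Polynomial.irreducible_X 1
    have h4 : kd T X 1 = 0 := by
      unfold kd
      rw [pow_one, aeval_X, LinearMap.ker_eq_bot.mpr hT, finrank_bot]
    rw [h4] at h3
    have h5 := Finset.sum_eq_zero_iff.mp h3.symm i (Finset.mem_univ i)
    rw [if_pos hX, Polynomial.natDegree_X, one_mul] at h5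
    have := he i
    omega
  have hprod : ∀ j : Fin n, ((Finset.univ.filter (fun i => e i = j.1 + 1)).val.map p).prod = ∏ i ∈ Finset.univ.filter (fun i => e i = j.1 + 1), p i :=
    fun j => rfl
  refine ⟨⟨fun j => ∏ i ∈ Finset.univ.filter (fun i => e i = j.1 + 1), p i, ?_, ?_⟩, ι, hι, p, e, hirr, hmon, he, hen, ⟨φ, hφ⟩, hprod⟩
  · intro j
    refine ⟨Polynomial.monic_prod_of_monic _ _ (fun i _ => hmon i), ?_⟩
    rw [Polynomial.coeff_zero_eq_eval_zero, Polynomial.eval_prod, Finset.prod_ne_zero_iff]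
    intro i _
    rw [← Polynomial.coeff_zero_eq_eval_zero]
    exact hc i
  · have h1 : ∀ j : Fin n, (1 + j.1) * (∏ i ∈ Finset.univ.filter (fun i => e i = j.1 + 1), p i).natDegree =
        ∑ i ∈ Finset.univ.filter (fun i => e i = j.1 + 1), e i * (p i).natDegree := by
      intro j
      rw [Polynomial.natDegree_prod_of_monic _ _ (fun i _ => hmon i), Finset.mul_sum]
      refine Finset.sum_congr rfl (fun i hi => ?_)
      rw [Finset.mem_filter] at hi
      rw [hi.2, add_comm]
    refine (Finset.sum_congr rfl (fun (j : Fin n) _ => h1 j)).trans ?_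
    refine Eq.trans ?_ hfr
    have hmap : ∀ i ∈ (Finset.univ : Finset ι), (⟨e i - 1, by have := he i; have := hen i; omega⟩ : Fin n) ∈ (Finset.univ : Finset (Fin n)) :=
      fun i _ => Finset.mem_univ _
    rw [← Finset.sum_fiberwise_of_maps_to hmap (f := fun i => e i * (p i).natDegree)]
    refine Finset.sum_congr rfl (fun j _ => ?_)
    refine Finset.sum_congr ?_ (fun _ _ => rfl)
    ext i
    simp only [Finset.mem_filter, Finset.mem_univ, true_and]
    rw [Fin.ext_iff]
    have := he i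
    constructor
    · intro h; simp only; omega
    · intro h; simp only at h; omega

end Cfsg.Agent.H22Kg
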