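import Mathlib

set_option autoImplicit false

/-! Overgroups of Sylow 2-subgroups of symmetric and alternating groups, I (seat helper22). -/

namespace Cfsg.Agent.H22.Mx

open Equiv MulAction
open scoped Pointwise

/-! general -/

section gen
variable {G : Type*} [Group G] [Finite G]

/-- if the maximal overgroup of `R` is unique then it contains all proper overgroups -/
lemma le_unique {R M : Subgroup G} (hM : ∀ M', IsCoatom M' → R ≤ M' → M' = M) {K : Subgroup G} (hK : K ≠ ⊤) (hRK : R ≤ K) : K ≤ M := by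
  haveI : IsCoatomic (Subgroup G) := inferInstance
  rcases IsCoatomic.eq_top_or_exists_le_coatom K with h | ⟨M', h1, h2⟩
  · exact absurd h hK
  · rw [← hM M' h1 (hRK.trans h2)]; exact h2

lemma odd_index (R : Sylow 2 G) {M : Subgroup G} (h : (R : Subgroup G) ≤ M) : ¬ 2 ∣ M.index := fun h2 =>
  R.not_dvd_index (h2.trans (Subgroup.index_dvd_of_le h))

end gen

section full
variable {G : Type*} [Group G] [Finite G] {α : Type*} [Fintype α] [DecidableEq α] {ψ : G →* Perm α}

lemma full (hψ : Function.Injective ψ) [Nontrivial α] {M : Subgroup G} (h1 : alternatingGroup α ≤ M.map ψ) (h2 : ¬ 2 ∣ M.index) : M = ⊤ := by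
  have e1 : Nat.card (M.map ψ) = Nat.card M := Nat.card_congr (Subgroup.equivMapOfInjective M ψ hψ).toEquiv.symm
  have e2 : Nat.card G = Nat.card ψ.range := Nat.card_congr (MonoidHom.ofInjective hψ).toEquiv
  have e3 : Nat.card (alternatingGroup α) ∣ Nat.card (M.map ψ) := Subgroup.card_dvd_of_le h1
  have e4 : Nat.card ψ.range ∣ Nat.card (Perm α) := Subgroup.card_subgroup_dvd_card _
  have e5 : 2 * Nat.card (alternatingGroup α) = Nat.card (Perm α) := two_mul_nat_card_alternatingGroup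
  have e6 : Nat.card M * M.index = Nat.card G := Subgroup.card_mul_index M
  obtain ⟨t, ht⟩ := e3
  have hpos : 0 < Nat.card (alternatingGroup α) := Nat.card_pos
  rw [← e2, ← e6, ← e1, ht, ← e5, mul_assoc, mul_comm 2] at e4
  have e7 := Nat.dvd_of_mul_dvd_mul_left hpos e4
  have e8 : M.index ∣ 2 := (dvd_mul_left _ _).trans e7
  rw [← Subgroup.index_eq_one]
  rcases (Nat.dvd_prime Nat.prime_two).1 e8 with h | h
  · exact h
  · exact absurd (by rw [h]) h2

end full

section prim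
variable {α : Type*}

lemma prim_of_two (M : Subgroup (Perm α)) (x : α) (h1 : ∃ g ∈ M, g x ≠ x)
    (h2 : ∀ y z, y ≠ x → z ≠ x → ∃ g ∈ M, g x = x ∧ g y = z) : IsPreprimitive M α := by
  apply isPreprimitive_of_is_two_pretransitive
  rw [is_two_pretransitive_iff]
  have key : ∀ a, ∃ g ∈ M, g a = x := by
    intro a
    by_cases ha : a = x
    · exact ⟨1, M.one_mem, ha⟩
    obtain ⟨g, hg, hgx⟩ := h1
    obtain ⟨h, hh, h3, h4⟩ := h2 a (g x) ha hgx
    exact ⟨g⁻¹ * h, M.mul_mem (M.inv_mem hg) hh, by rw [Perm.mul_apply, h4]; simp⟩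
  intro a b c d hab hcd
  obtain ⟨g, hg, hga⟩ := key a
  obtain ⟨h, hh, hhc⟩ := key c
  obtain ⟨k, hk, hkx, hkb⟩ := h2 (g b) (h d) (by rw [← hga]; exact fun e => hab (g.injective e).symm) (by rw [← hhc]; exact fun e => hcd (h.injective e).symm)
  refine ⟨⟨h⁻¹ * k * g, M.mul_mem (M.mul_mem (M.inv_mem hh) hk) hg⟩, ?_, ?_⟩
  · show (h⁻¹ * k * g) a = c
    rw [Perm.mul_apply, Perm.mul_apply, hga, hkx, ← hhc]; simp
  · show (h⁻¹ * k * g) b = d
    rw [Perm.mul_apply, Perm.mul_apply, hkb]; simp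

end prim

section three
variable {α : Type*} [DecidableEq α]

/-- all double transpositions on `Δ` -/
def DT (M : Subgroup (Perm α)) (Δ : Set α) : Prop :=
  ∀ a ∈ Δ, ∀ b ∈ Δ, ∀ c ∈ Δ, ∀ d ∈ Δ, a ≠ b → a ≠ c → a ≠ d → b ≠ c → b ≠ d → c ≠ d → swap a b * swap c d ∈ M

lemma DT.image {M : Subgroup (Perm α)} {Δ : Set α} (h : DT M Δ) {g : Perm α} (hg : g ∈ M) : DT M (g '' Δ) := by
  rintro _ ⟨a, ha, rfl⟩ _ ⟨b, hb, rfl⟩ _ ⟨c, hc, rfl⟩ _ ⟨d, hd, rfl⟩ h1 h2 h3 h4 h5 h6
  have h7 := h a ha b hb c hc d hd (fun e => h1 (by rw [e])) (fun e => h2 (by rw [e])) (fun e => h3 (by rw [e])) (fun e => h4 (by rw [e]))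
    (fun e => h5 (by rw [e])) (fun e => h6 (by rw [e]))
  have h8 := M.mul_mem (M.mul_mem hg h7) (M.inv_mem hg)
  have e : g * (swap a b * swap c d) * g⁻¹ = swap (g a) (g b) * swap (g c) (g d) := by
    rw [Equiv.swap_apply_apply, Equiv.swap_apply_apply]; group
  rwa [e] at h8

lemma swap_comm_of {a b c d : α} (h1 : a ≠ c) (h2 : a ≠ d) (h3 : b ≠ c) (h4 : b ≠ d) : swap a b * swap c d = swap c d * swap a b := by
  have h : swap (swap c d a) (swap c d b) = swap c d * swap a b * (swap c d)⁻¹ := Equiv.swap_apply_apply _ _ _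
  rw [swap_apply_of_ne_of_ne h1 h2, swap_apply_of_ne_of_ne h3 h4] at h
  nth_rewrite 1 [h]
  group

/-- two double transpositions sharing one point -/
lemma three_of_one [Fintype α] {M : Subgroup (Perm α)} {y a b c d e f : α} (h1 : swap y a * swap b c ∈ M) (h2 : swap y d * swap e f ∈ M)
    (hyb : y ≠ b) (hyc : y ≠ c) (had : a ≠ d) (hae : a ≠ e) (haf : a ≠ f) (hbd : b ≠ d) (hbe : b ≠ e) (hbf : b ≠ f)
    (hcd : c ≠ d) (hce : c ≠ e) (hcf : c ≠ f) (hyd : y ≠ d) (hye : y ≠ e) (hyf : y ≠ f) (hde : d ≠ e) (hdf : d ≠ f) (hya : y ≠ a) :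
    ∃ g ∈ M, g.IsThreeCycle := by
  have h3 := M.mul_mem (M.mul_mem h1 h2) (M.inv_mem h1)
  have e1 : (swap y a * swap b c) * (swap y d * swap e f) * (swap y a * swap b c)⁻¹ =
      swap ((swap y a * swap b c) y) ((swap y a * swap b c) d) * swap ((swap y a * swap b c) e) ((swap y a * swap b c) f) := by
    rw [Equiv.swap_apply_apply, Equiv.swap_apply_apply]; group
  have e2 : (swap y a * swap b c) y = a := by
    rw [Perm.mul_apply, swap_apply_of_ne_of_ne hyb hyc, swap_apply_left]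
  have e3 : (swap y a * swap b c) d = d := by
    rw [Perm.mul_apply, swap_apply_of_ne_of_ne hbd.symm hcd.symm, swap_apply_of_ne_of_ne hyd.symm had.symm]
  have e4 : (swap y a * swap b c) e = e := by
    rw [Perm.mul_apply, swap_apply_of_ne_of_ne hbe.symm hce.symm, swap_apply_of_ne_of_ne hye.symm hae.symm]
  have e5 : (swap y a * swap b c) f = f := by
    rw [Perm.mul_apply, swap_apply_of_ne_of_ne hbf.symm hcf.symm, swap_apply_of_ne_of_ne hyf.symm haf.symm]
  rw [e1, e2, e3, e4, e5] at h3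
  refine ⟨_, M.mul_mem h2 h3, ?_⟩
  have e6 : swap y d * swap e f * (swap a d * swap e f) = swap d y * swap d a := by
    rw [swap_comm_of hae haf hde hdf, mul_assoc, ← mul_assoc (swap e f), swap_mul_self, one_mul, swap_comm y d, swap_comm a d]
  rw [e6]
  exact Perm.isThreeCycle_swap_mul_swap_same hyd.symm had.symm hya

/-- two double transpositions sharing three points -/
lemma three_of_three [Fintype α] {M : Subgroup (Perm α)} {y a b c z : α} (h1 : swap y a * swap b c ∈ M) (h2 : swap z a * swap b c ∈ M)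
    (hyb : y ≠ b) (hyc : y ≠ c) (hya : y ≠ a) (hab : a ≠ b) (hac : a ≠ c) (hza : z ≠ a) (hzy : z ≠ y) (hzb : z ≠ b) (hzc : z ≠ c) :
    ∃ g ∈ M, g.IsThreeCycle := by
  refine ⟨_, M.mul_mem h1 h2, ?_⟩
  have e6 : swap y a * swap b c * (swap z a * swap b c) = swap a y * swap a z := by
    rw [swap_comm_of hzb hzc hab hac, mul_assoc, ← mul_assoc (swap b c), swap_mul_self, one_mul, swap_comm y a, swap_comm z a]
  rw [e6]
  exact Perm.isThreeCycle_swap_mul_swap_same hya.symm hza.symm hzy.symm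

end three

end Cfsg.Agent.H22.Mx
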