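import Cfsg.Agent.LibH22Mx1

set_option autoImplicit false

/-! Overgroups of Sylow 2-subgroups of symmetric and alternating groups, II (seat helper22). -/

namespace Cfsg.Agent.H22.Mx

open Equiv MulAction
open scoped Pointwise

abbrev KK := ZMod 2 × ZMod 2

section
variable {ι : Type} [AddCommGroup ι] [Fintype ι] [DecidableEq ι]

/-- explicit 2-group on `2^k + 1` points -/
def QQ (ι : Type) [AddCommGroup ι] [Fintype ι] [DecidableEq ι] : Subgroup (Perm (Option (ι × KK))) where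
  carrier := {g | Perm.sign g = 1 ∧ g none = none ∧ ∃ (a : ι) (f : ι → KK), ∀ i v, g (some (i, v)) = some (i + a, v + f i)}
  one_mem' := ⟨by simp, rfl, 0, 0, fun i v => by simp⟩
  mul_mem' := by
    rintro g h ⟨h1, h2, a, f, h3⟩ ⟨k1, k2, b, f', k3⟩
    refine ⟨by rw [map_mul, h1, k1, one_mul], by rw [Perm.mul_apply, k2, h2], b + a, fun i => f' i + f (i + b), fun i v => ?_⟩
    rw [Perm.mul_apply, k3, h3, add_assoc, add_assoc]
  inv_mem' := by
    rintro g ⟨h1, h2, a, f, h3⟩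
    refine ⟨by rw [map_inv, h1, inv_one], by rw [Perm.inv_eq_iff_eq, h2], -a, fun i => - f (i - a), fun i v => ?_⟩
    rw [Perm.inv_eq_iff_eq, h3]
    rw [neg_add_cancel_right, ← sub_eq_add_neg, ← sub_eq_add_neg, sub_add_cancel]

lemma QQ_pow (h2 : ∀ a : ι, a + a = 0) {g : Perm (Option (ι × KK))} (hg : g ∈ QQ ι) : g ^ 4 = 1 := by
  obtain ⟨-, hn, a, f, h⟩ := hg
  have hK : ∀ v : KK, v + v = 0 := by decide
  have e : ∀ i v, (g * g) (some (i, v)) = some (i, v + (f i + f (i + a))) := by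
    intro i v
    rw [Perm.mul_apply, h, h, add_assoc, h2, add_zero, add_assoc]
  have e2 : g ^ 4 = (g * g) * (g * g) := by rw [← pow_two, ← pow_two, ← pow_mul]
  rw [e2]
  ext1 x
  rcases x with _ | ⟨i, v⟩
  · show g (g (g (g none))) = none
    rw [hn, hn, hn, hn]
  · rw [Perm.mul_apply, e, e, add_assoc, hK, add_zero]; rfl

lemma QQ_isPGroup (h2 : ∀ a : ι, a + a = 0) : IsPGroup 2 (QQ ι) := by
  intro g
  refine ⟨2, Subtype.ext ?_⟩
  exact QQ_pow h2 g.2

lemma QQ_shift (a : ι) : ∃ g ∈ QQ ι, ∀ i v, g (some (i, v)) = some (i + a, v) := by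
  refine ⟨optionCongr (prodCongrLeft fun _ : KK => (Equiv.addRight a : Perm ι)), ⟨?_, rfl, a, 0, ?_⟩, ?_⟩
  · rw [Equiv.optionCongr_sign, Perm.sign_prodCongrLeft]
    rw [Finset.prod_const]
    have : (Finset.univ : Finset KK).card = 4 := by decide
    rw [this]
    rcases Int.units_eq_one_or (Perm.sign (Equiv.addRight a : Perm ι)) with h | h <;> rw [h] <;> rfl
  · intro i v
    simp
  · intro i v
    simp

lemma QQ_dt (i : ι) {a b c d : KK} (h1 : a ≠ b) (h2 : a ≠ c) (h3 : a ≠ d) (h4 : b ≠ c) (h5 : b ≠ d) (h6 : c ≠ d) :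
    swap (some (i, a)) (some (i, b)) * swap (some (i, c)) (some (i, d)) ∈ QQ ι := by
  have hK : ∀ a b c d v : KK, a ≠ b → a ≠ c → a ≠ d → b ≠ c → b ≠ d → c ≠ d → (swap a b) (swap c d v) = v + (b - a) := by decide
  have hs : ∀ (a b v : KK) (j : ι), swap (some (i, a)) (some (i, b)) (some (j, v)) = if j = i then some (i, swap a b v) else some (j, v) := by
    intro a b v j
    by_cases hj : j = i
    · subst hj
      rw [if_pos rfl, swap_apply_def, swap_apply_def]
      simp only [Option.some.injEq, Prod.mk.injEq, true_and]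
      split_ifs <;> rfl
    · rw [if_neg hj, swap_apply_of_ne_of_ne]
      · intro h; exact hj (congrArg Prod.fst (Option.some.inj h))
      · intro h; exact hj (congrArg Prod.fst (Option.some.inj h))
  refine ⟨?_, ?_, 0, Function.update 0 i (b - a), ?_⟩
  · rw [map_mul, Perm.sign_swap, Perm.sign_swap]
    · rfl
    · intro h; exact h6 (congrArg Prod.snd (Option.some.inj h))
    · intro h; exact h1 (congrArg Prod.snd (Option.some.inj h))
  · have n1 : ∀ x y : ι × KK, swap (some x) (some y) none = none := fun x y => swap_apply_of_ne_of_ne (by simp) (by simp)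
    rw [Perm.mul_apply, n1, n1]
  · intro j v
    rw [Perm.mul_apply, hs]
    by_cases hj : j = i
    · subst hj
      rw [if_pos rfl, hs, if_pos rfl, hK a b c d v h1 h2 h3 h4 h5 h6, Function.update_self, add_zero]
    · rw [if_neg hj, hs, if_neg hj, Function.update_of_ne hj]
      simp

set_option synthInstance.maxSize 1000 in
lemma KK2 : ∀ v w : KK, v ≠ w → ∃ c d : KK, c ≠ d ∧ v ≠ c ∧ v ≠ d ∧ w ≠ c ∧ w ≠ d := by decide

set_option synthInstance.maxSize 1000 in
lemma KK3 : ∀ v0 : KK, ∃ v1 v2 v3 : KK, v0 ≠ v1 ∧ v0 ≠ v2 ∧ v0 ≠ v3 ∧ v1 ≠ v2 ∧ v1 ≠ v3 ∧ v2 ≠ v3 := by decide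

set_option synthInstance.maxSize 1000 in
lemma KK1 : ∀ v1 v2 v3 : KK, v1 ≠ v2 → v1 ≠ v3 → v2 ≠ v3 → ∃ v0 : KK, v0 ≠ v1 ∧ v0 ≠ v2 ∧ v0 ≠ v3 := by decide

lemma QQ_trans (i j : ι) (v w : KK) : ∃ g ∈ QQ ι, g none = none ∧ g (some (i, v)) = some (j, w) := by
  obtain ⟨g, hg, hg'⟩ := QQ_shift (j - i)
  by_cases hvw : v = w
  · subst hvw
    exact ⟨g, hg, hg.2.1, by rw [hg', add_sub_cancel]⟩
  · obtain ⟨c, d, h1, h2, h3, h4, h5⟩ := KK2 v w hvw
    have h6 := QQ_dt i hvw h2 h3 h4 h5 h1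
    refine ⟨_, (QQ ι).mul_mem hg h6, ((QQ ι).mul_mem hg h6).2.1, ?_⟩
    rw [Perm.mul_apply, Perm.mul_apply, swap_apply_of_ne_of_ne (a := some (i, c)), swap_apply_left, hg', add_sub_cancel]
    · intro h; exact h2 (congrArg Prod.snd (Option.some.inj h))
    · intro h; exact h3 (congrArg Prod.snd (Option.some.inj h))

/-- main lemma: an overgroup of `QQ` moving `none` contains the alternating group -/
theorem main1 {M : Subgroup (Perm (Option (ι × KK)))} (hM : QQ ι ≤ M) (hn : ∃ g ∈ M, g none ≠ none) :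
    alternatingGroup (Option (ι × KK)) ≤ M := by
  have hprim : IsPreprimitive M (Option (ι × KK)) := by
    apply prim_of_two M none hn
    intro y z hy hz
    rcases y with _ | ⟨i, v⟩
    · exact absurd rfl hy
    rcases z with _ | ⟨j, w⟩
    · exact absurd rfl hz
    obtain ⟨g, hg, h1, h2⟩ := QQ_trans i j v w
    exact ⟨g, hM hg, h1, h2⟩
  -- the element
  obtain ⟨g, hg, hgn⟩ := hn
  obtain ⟨⟨i0, v0⟩, hi0⟩ : ∃ p, g none = some p := Option.ne_none_iff_exists'.1 hgn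
  have hg1 : g⁻¹ (some (i0, v0)) = none := by rw [Perm.inv_eq_iff_eq, hi0]
  obtain ⟨g, hg', rfl⟩ : ∃ g' ∈ M, g'⁻¹ = g := ⟨g⁻¹, M.inv_mem hg, inv_inv g⟩
  rw [inv_inv] at hg1
  clear hg hgn hi0
  obtain ⟨v1, v2, v3, k1, k2, k3, k4, k5, k6⟩ := KK3 v0
  have hne : ∀ v, v ≠ v0 → g (some (i0, v)) ≠ none := by
    intro v hv h
    rw [← hg1] at h
    exact hv (congrArg Prod.snd (Option.some.inj (g.injective h)))
  obtain ⟨⟨i1, w1⟩, h1⟩ := Option.ne_none_iff_exists'.1 (hne v1 k1.symm)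
  obtain ⟨⟨i2, w2⟩, h2⟩ := Option.ne_none_iff_exists'.1 (hne v2 k2.symm)
  obtain ⟨⟨i3, w3⟩, h3⟩ := Option.ne_none_iff_exists'.1 (hne v3 k3.symm)
  have hinj : ∀ {v v' : KK} {i j w w'}, v ≠ v' → g (some (i0, v)) = some (i, w) → g (some (i0, v')) = some (j, w') → i = j → w ≠ w' := by
    intro v v' i j w w' hv e1 e2 hij hw
    subst hij; subst hw
    exact hv (congrArg Prod.snd (Option.some.inj (g.injective (e1.trans e2.symm))))
  have hconj : ∀ {a b c d : KK}, a ≠ b → a ≠ c → a ≠ d → b ≠ c → b ≠ d → c ≠ d →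
      swap (g (some (i0, a))) (g (some (i0, b))) * swap (g (some (i0, c))) (g (some (i0, d))) ∈ M := by
    intro a b c d h1 h2 h3 h4 h5 h6
    have h7 := M.mul_mem (M.mul_mem hg' (hM (QQ_dt i0 h1 h2 h3 h4 h5 h6))) (M.inv_mem hg')
    have e : g * (swap (some (i0, a)) (some (i0, b)) * swap (some (i0, c)) (some (i0, d))) * g⁻¹ =
        swap (g (some (i0, a))) (g (some (i0, b))) * swap (g (some (i0, c))) (g (some (i0, d))) := by
      rw [Equiv.swap_apply_apply, Equiv.swap_apply_apply]; group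
    rwa [e] at h7
  have sne : ∀ {i j : ι} {v w : KK}, i ≠ j → (some (i, v) : Option (ι × KK)) ≠ some (j, w) := by
    intro i j v w h e; exact h (congrArg Prod.fst (Option.some.inj e))
  have sne' : ∀ {i j : ι} {v w : KK}, v ≠ w → (some (i, v) : Option (ι × KK)) ≠ some (j, w) := by
    intro i j v w h e; exact h (congrArg Prod.snd (Option.some.inj e))
  have key : ∀ {vj vk vl : KK} {ij ik il : ι} {wj wk wl : KK}, vj ≠ v0 → vj ≠ vk → vj ≠ vl → v0 ≠ vk → v0 ≠ vl → vk ≠ vl →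
      g (some (i0, vj)) = some (ij, wj) → g (some (i0, vk)) = some (ik, wk) → g (some (i0, vl)) = some (il, wl) → ij ≠ ik → ij ≠ il →
      ∃ t ∈ M, t.IsThreeCycle := by
    intro vj vk vl ij ik il wj wk wl e1 e2 e3 e4 e5 e6 hj hk hl hjk hjl
    obtain ⟨a, b, c, m1, m2, m3, m4, m5, m6⟩ := KK3 wj
    have n1 := hM (QQ_dt ij m1 m2 m3 m4 m5 m6)
    have n2 := hconj e1 e2 e3 e4 e5 e6
    have hg0 : g (some (i0, v0)) = none := by rw [← hg1]
    rw [hj, hk, hl, hg0] at n2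
    refine three_of_one n1 n2 (sne' m2) (sne' m3) (by simp) (sne hjk) (sne hjl) (by simp) (sne hjk) (sne hjl) (by simp) (sne hjk) (sne hjl)
      (by simp) (sne hjk) (sne hjl) (by simp) (by simp) (sne' m1)
  obtain ⟨t, ht, ht3⟩ : ∃ t ∈ M, t.IsThreeCycle := by
    by_cases h12 : i1 = i2
    · by_cases h13 : i1 = i3
      · have q1 := hinj k4 h1 h2 h12
        have q2 := hinj k5 h1 h3 h13
        have q3 := hinj k6 h2 h3 (h12.symm.trans h13)
        obtain ⟨w0, m1, m2, m3⟩ := KK1 w1 w2 w3 q1 q2 q3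
        have n1 := hM (QQ_dt i1 m1 m2 m3 q1 q2 q3)
        have n2 := hconj k1 k2 k3 k4 k5 k6
        have hg0 : g (some (i0, v0)) = none := by rw [← hg1]
        rw [h1, h2, h3, hg0, ← h12, ← h13] at n2
        exact three_of_three n1 n2 (sne' m2) (sne' m3) (sne' m1) (sne' q1) (sne' q2) (by simp) (by simp) (by simp) (by simp)
      · exact key k3.symm k5.symm k6.symm k1 k2 k4 h3 h1 h2 (Ne.symm h13) (fun h => h13 (h12.trans h.symm))
    · by_cases h13 : i1 = i3
      · exact key k2.symm k4.symm k6 k1 k3 k5 h2 h1 h3 (Ne.symm h12) (fun h => h12 (h13.trans h.symm))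
      · exact key k1.symm k4 k5 k2 k3 k6 h1 h2 h3 h12 h13
  exact Perm.alternatingGroup_le_of_isPreprimitive_of_isThreeCycle_mem hprim ht3 ht

end

end Cfsg.Agent.H22.Mx
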