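import Cfsg.Agent.LibH22Mx2

set_option autoImplicit false

/-! Structures fixed by 2-groups of permutations (seat helper22). -/

namespace Cfsg.Agent.H22.Mx

open Equiv MulAction
open scoped Pointwise

variable {α : Type*} [Fintype α] [DecidableEq α] {R : Subgroup (Perm α)}

lemma fixed_set (hR : IsPGroup 2 R) {s : ℕ} (hs : ¬ 2 ∣ (Fintype.card α).choose s) :
    ∃ S : Finset α, S.card = s ∧ ∀ g ∈ R, ∀ x, g x ∈ S ↔ x ∈ S := by
  obtain ⟨S, hS⟩ := hR.nonempty_fixed_point_of_prime_not_dvd_card (Set.powersetCard α s) (by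
    rwa [Set.powersetCard.card, Nat.card_eq_fintype_card])
  refine ⟨S, Set.powersetCard.card_eq S, fun g hg x => ?_⟩
  have h1 := hS ⟨g, hg⟩
  have h2 : (⟨g, hg⟩ : R) • (S : Finset α) = S := by
    exact congrArg Subtype.val h1
  constructor
  · intro h
    rw [← h2] at h
    obtain ⟨y, hy, hyx⟩ := Finset.mem_smul_finset.1 h
    rwa [← g.injective hyx]
  · intro h
    rw [← h2]
    exact Finset.mem_smul_finset.2 ⟨x, h, rfl⟩

lemma fixed_point (hR : IsPGroup 2 R) (hs : ¬ 2 ∣ Fintype.card α) : ∃ x : α, ∀ g ∈ R, g x = x := by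
  obtain ⟨x, hx⟩ := hR.nonempty_fixed_point_of_prime_not_dvd_card α (by rwa [Nat.card_eq_fintype_card])
  exact ⟨x, fun g hg => hx ⟨g, hg⟩⟩

/-- fixed point free involutions -/
abbrev FI (α : Type*) := {τ : Perm α // (∀ x, τ x ≠ x) ∧ τ * τ = 1}

instance : MulAction R (FI α) where
  smul g τ := ⟨g.1 * τ.1 * g.1⁻¹, by
    intro x h
    apply τ.2.1 (g.1⁻¹ x)
    apply g.1.injective
    simpa using h, by
    have := τ.2.2
    calc g.1 * τ.1 * g.1⁻¹ * (g.1 * τ.1 * g.1⁻¹) = g.1 * (τ.1 * τ.1) * g.1⁻¹ := by group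
      _ = 1 := by rw [this]; group⟩
  one_smul τ := Subtype.ext (by show (1 : Perm α) * τ.1 * 1⁻¹ = τ.1; group)
  mul_smul g h τ := Subtype.ext (by show (g.1 * h.1) * τ.1 * (g.1 * h.1)⁻¹ = g.1 * (h.1 * τ.1 * h.1⁻¹) * g.1⁻¹; group)

lemma FI_cycleType {m : ℕ} (hα : Fintype.card α = 2 * m) (τ : Perm α) :
    τ.cycleType = Multiset.replicate m 2 ↔ ((∀ x, τ x ≠ x) ∧ τ * τ = 1) := by
  constructor
  · intro h
    have h1 : τ.support.card = Fintype.card α := by
      rw [← Perm.sum_cycleType, h, Multiset.sum_replicate, hα, smul_eq_mul, mul_comm]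
    have h2 : τ.support = Finset.univ := Finset.eq_univ_of_card _ h1
    refine ⟨fun x => ?_, ?_⟩
    · rw [← Perm.mem_support, h2]; exact Finset.mem_univ x
    · have h3 : τ ^ 2 = 1 := by
        haveI : Fact (Nat.Prime 2) := ⟨Nat.prime_two⟩
        rw [Perm.pow_prime_eq_one_iff, h]
        intro c hc
        exact Multiset.eq_of_mem_replicate hc
      rw [← pow_two, h3]
  · rintro ⟨h1, h2⟩
    haveI : Fact (Nat.Prime 2) := ⟨Nat.prime_two⟩
    have h3 := Perm.cycleType_of_pow_prime_eq_one (σ := τ) (p := 2) (by rw [pow_two, h2])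
    have h4 : τ.support = Finset.univ := by
      ext x; simp [h1]
    have h5 := Perm.sum_cycleType τ
    rw [h3, h4, Multiset.sum_replicate, Finset.card_univ, hα, smul_eq_mul] at h5
    rw [h3]
    congr 1
    omega

lemma odd_df (m : ℕ) : ¬ 2 ∣ (2 * m + 1).doubleFactorial := by
  induction m with
  | zero => simp
  | succ m ih =>
    have e : 2 * (m + 1) + 1 = (2 * m + 1) + 2 := by ring
    rw [e, Nat.doubleFactorial_add_two, Nat.prime_two.dvd_mul]
    rintro (h | h)
    · omega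
    · exact ih h

lemma card_FI {m : ℕ} (hm : 0 < m) (hα : Fintype.card α = 2 * m) : ¬ 2 ∣ Nat.card (FI α) := by
  have h1 : Nat.card (FI α) = (Finset.univ.filter fun g : Perm α => g.cycleType = Multiset.replicate m 2).card := by
    rw [Nat.card_eq_fintype_card, Fintype.card_subtype]
    congr 1
    ext τ
    simp only [Finset.mem_filter, Finset.mem_univ, true_and]
    exact (FI_cycleType hα τ).symm
  have h2 := Perm.card_of_cycleType_mul_eq α (Multiset.replicate m 2)
  rw [← h1, if_pos] at h2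
  · rw [hα, Multiset.sum_replicate, smul_eq_mul, mul_comm m 2, Nat.sub_self, Nat.factorial_zero, one_mul, Multiset.prod_replicate,
      Multiset.toFinset_replicate, if_neg hm.ne', Finset.prod_singleton, Multiset.count_replicate_self] at h2
    obtain ⟨k, rfl⟩ : ∃ k, m = k + 1 := ⟨m - 1, by omega⟩
    have h3 : (2 * (k + 1)).factorial = (2 * k + 1).doubleFactorial * (2 ^ (k + 1) * (k + 1).factorial) := by
      have e1 : (2 * k + 1 + 1).factorial = (2 * k + 1 + 1).doubleFactorial * (2 * k + 1).doubleFactorial := Nat.factorial_eq_mul_doubleFactorial (2 * k + 1)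
      have e2 : (2 * (k + 1)).doubleFactorial = 2 ^ (k + 1) * (k + 1).factorial := Nat.doubleFactorial_two_mul (k + 1)
      rw [← e2, mul_comm ((2 * k + 1).doubleFactorial)]
      exact e1
    rw [h3] at h2
    rw [Nat.eq_of_mul_eq_mul_right (by positivity) h2]
    exact odd_df k
  · refine ⟨?_, ?_⟩
    · rw [Multiset.sum_replicate, hα, smul_eq_mul, mul_comm]
    · intro a ha
      rw [Multiset.eq_of_mem_replicate ha]

lemma fixed_inv (hR : IsPGroup 2 R) {m : ℕ} (hm : 0 < m) (hα : Fintype.card α = 2 * m) :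
    ∃ τ : Perm α, (∀ x, τ x ≠ x) ∧ τ * τ = 1 ∧ ∀ g ∈ R, g * τ = τ * g := by
  obtain ⟨τ, hτ⟩ := hR.nonempty_fixed_point_of_prime_not_dvd_card (FI α) (card_FI hm hα)
  refine ⟨τ.1, τ.2.1, τ.2.2, fun g hg => ?_⟩
  have h1 : g * τ.1 * g⁻¹ = τ.1 := congrArg Subtype.val (hτ ⟨g, hg⟩)
  calc g * τ.1 = (g * τ.1 * g⁻¹) * g := by group
    _ = τ.1 * g := by rw [h1]

/-- halvings -/
def Hv (R : Subgroup (Perm α)) (m : ℕ) (hα : Fintype.card α = 2 * m) : SubMulAction R (Finset (Finset α)) where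
  carrier := {P | ∃ S : Finset α, S.card = m ∧ P = {S, Sᶜ}}
  smul_mem' := by
    rintro g _ ⟨S, hS, rfl⟩
    refine ⟨g • S, by rw [Finset.card_smul_finset, hS], ?_⟩
    have h1 : g • Sᶜ = (g • S)ᶜ := by
      ext y
      rw [← Finset.inv_smul_mem_iff, Finset.mem_compl, Finset.mem_compl, ← Finset.inv_smul_mem_iff]
    rw [Finset.smul_finset_insert, Finset.smul_finset_singleton, h1]

lemma card_Hv {m : ℕ} (hm : 0 < m) (hα : Fintype.card α = 2 * m) : Nat.card (Hv R m hα) = (2 * m - 1).choose (m - 1) := by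
  have : Nonempty α := by
    rw [← Fintype.card_pos_iff, hα]; omega
  obtain ⟨x0⟩ := this
  have h1 : ((Finset.univ.erase x0).powersetCard (m - 1)).card = (2 * m - 1).choose (m - 1) := by
    rw [Finset.card_powersetCard, Finset.card_erase_of_mem (Finset.mem_univ _), Finset.card_univ, hα]
  rw [← h1, ← Nat.card_eq_finsetCard]
  symm
  have hT : ∀ T : ((Finset.univ.erase x0).powersetCard (m - 1)), x0 ∉ T.1 ∧ T.1.card = m - 1 := by
    intro T
    have := Finset.mem_powersetCard.1 T.2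
    exact ⟨fun h => Finset.notMem_erase _ _ (this.1 h), this.2⟩
  refine Nat.card_congr (Equiv.ofBijective (fun T : ((Finset.univ.erase x0).powersetCard (m - 1)) =>
    (⟨{insert x0 T.1, (insert x0 T.1)ᶜ}, insert x0 T.1, by rw [Finset.card_insert_of_notMem (hT T).1, (hT T).2]; omega, rfl⟩ : Hv R m hα)) ⟨?_, ?_⟩)
  · intro T T' h
    have h2 : ({insert x0 T.1, (insert x0 T.1)ᶜ} : Finset (Finset α)) = {insert x0 T'.1, (insert x0 T'.1)ᶜ} := congrArg Subtype.val h
    have h3 : insert x0 T.1 ∈ ({insert x0 T'.1, (insert x0 T'.1)ᶜ} : Finset (Finset α)) := by rw [← h2]; exact Finset.mem_insert_self _ _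
    rw [Finset.mem_insert, Finset.mem_singleton] at h3
    rcases h3 with h3 | h3
    · apply Subtype.ext
      rw [← Finset.erase_insert (hT T).1, h3, Finset.erase_insert (hT T').1]
    · exfalso
      have h4 : x0 ∈ (insert x0 T'.1)ᶜ := by rw [← h3]; exact Finset.mem_insert_self _ _
      rw [Finset.mem_compl] at h4
      exact h4 (Finset.mem_insert_self _ _)
  · rintro ⟨P, S, hS, rfl⟩
    have key : ∀ S : Finset α, S.card = m → x0 ∈ S → ∃ T : ((Finset.univ.erase x0).powersetCard (m - 1)), insert x0 T.1 = S := by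
      intro S hS hx
      refine ⟨⟨S.erase x0, Finset.mem_powersetCard.2 ⟨fun y hy => ?_, ?_⟩⟩, Finset.insert_erase hx⟩
      · exact Finset.mem_erase.2 ⟨Finset.ne_of_mem_erase hy, Finset.mem_univ _⟩
      · rw [Finset.card_erase_of_mem hx, hS]
    by_cases hx : x0 ∈ S
    · obtain ⟨T, hT⟩ := key S hS hx
      exact ⟨T, Subtype.ext (by show ({insert x0 T.1, (insert x0 T.1)ᶜ} : Finset (Finset α)) = _; rw [hT])⟩
    · obtain ⟨T, hT⟩ := key Sᶜ (by rw [Finset.card_compl, hα, hS]; omega) (Finset.mem_compl.2 hx)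
      exact ⟨T, Subtype.ext (by show ({insert x0 T.1, (insert x0 T.1)ᶜ} : Finset (Finset α)) = _; rw [hT, compl_compl, Finset.pair_comm])⟩

/-- binomial coefficients -/
lemma choose_two_pow_sub (a : ℕ) : ∀ j, j < 2 ^ a → ¬ 2 ∣ (2 ^ a - 1).choose j := by
  intro j
  induction j with
  | zero => intro _; rw [Nat.choose_zero_right]; norm_num
  | succ j ih =>
    intro hj h
    have h1 := ih (by omega)
    have h2 : 2 ∣ (2 ^ a).choose (j + 1) := Nat.prime_two.dvd_choose_pow (by omega) (by omega)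
    have h3 : (2 ^ a).choose (j + 1) = (2 ^ a - 1).choose j + (2 ^ a - 1).choose (j + 1) := by
      have : 2 ^ a = (2 ^ a - 1) + 1 := by have := Nat.one_le_two_pow (n := a); omega
      conv_lhs => rw [this]
      rw [Nat.choose_succ_succ]
    rw [h3] at h2
    exact h1 ((Nat.dvd_add_left h).1 h2)

lemma choose_top {n a : ℕ} (h1 : 2 ^ a ≤ n) (h2 : n < 2 ^ (a + 1)) : ¬ 2 ∣ n.choose (2 ^ a) := by
  obtain ⟨r, rfl⟩ := Nat.exists_eq_add_of_le h1
  have hr : r < 2 ^ a := by rw [pow_succ] at h2; omega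
  rw [Nat.add_choose_eq]
  have h3 : ∑ ij ∈ Finset.HasAntidiagonal.antidiagonal (2 ^ a), (2 ^ a).choose ij.1 * r.choose ij.2 ≡ 1 [MOD 2] := by
    rw [← Finset.add_sum_erase _ _ (a := ((2 ^ a, 0) : ℕ × ℕ)) (by simp)]
    have h4 : 2 ∣ ∑ ij ∈ (Finset.HasAntidiagonal.antidiagonal (2 ^ a)).erase ((2 ^ a, 0) : ℕ × ℕ), (2 ^ a).choose ij.1 * r.choose ij.2 := by
      apply Finset.dvd_sum
      rintro ⟨i, j⟩ hij
      rw [Finset.mem_erase, Finset.HasAntidiagonal.mem_antidiagonal] at hij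
      obtain ⟨h6, h5⟩ := hij
      have h5' : i + j = 2 ^ a := h5
      have hj : j ≠ 0 := by
        rintro rfl
        exact h6 (by rw [add_zero] at h5'; rw [h5'])
      by_cases hi : i = 0
      · subst hi
        have : r.choose j = 0 := Nat.choose_eq_zero_of_lt (by omega)
        show 2 ∣ (2 ^ a).choose 0 * r.choose j
        rw [this, mul_zero]; exact dvd_zero 2
      · exact Dvd.dvd.mul_right (Nat.prime_two.dvd_choose_pow hi (by omega)) _
    show ((2 ^ a).choose (2 ^ a) * r.choose 0 + _) ≡ 1 [MOD 2]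
    rw [Nat.choose_self, Nat.choose_zero_right]
    exact (Nat.modEq_iff_dvd' (by omega)).2 (by simpa using h4) |>.symm
  intro h4
  have := (Nat.modEq_zero_iff_dvd.2 h4).symm.trans h3
  norm_num [Nat.ModEq] at this

lemma fixed_half (hR : IsPGroup 2 R) {a : ℕ} (hα : Fintype.card α = 2 * 2 ^ a) :
    ∃ S : Finset α, S.card = 2 ^ a ∧ ∀ g ∈ R, (∀ x, g x ∈ S ↔ x ∈ S) ∨ (∀ x, g x ∈ S ↔ x ∉ S) := by
  have hp : 0 < 2 ^ a := by positivity
  obtain ⟨⟨P, S, hS, rfl⟩, hP⟩ := hR.nonempty_fixed_point_of_prime_not_dvd_card (Hv R (2 ^ a) hα) (by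
    rw [card_Hv hp hα, ← pow_succ']
    exact choose_two_pow_sub (a + 1) _ (by rw [pow_succ]; omega))
  refine ⟨S, hS, fun g hg => ?_⟩
  have h1 := hP ⟨g, hg⟩
  have h2 : (⟨g, hg⟩ : R) • ({S, Sᶜ} : Finset (Finset α)) = {S, Sᶜ} := congrArg Subtype.val h1
  have h3 : (⟨g, hg⟩ : R) • S ∈ ({S, Sᶜ} : Finset (Finset α)) := by
    rw [← h2]; exact Finset.smul_mem_smul_finset (Finset.mem_insert_self _ _)
  have h5 : ∀ x, g x ∈ ((⟨g, hg⟩ : R) • S) ↔ x ∈ S := by
    intro x
    constructor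
    · intro h
      obtain ⟨y, hy, hyx⟩ := Finset.mem_smul_finset.1 h
      rwa [← g.injective hyx]
    · intro h
      exact Finset.mem_smul_finset.2 ⟨x, h, rfl⟩
  rw [Finset.mem_insert, Finset.mem_singleton] at h3
  rcases h3 with h3 | h3
  · left
    rw [h3] at h5; exact h5
  · right
    intro x
    rw [h3] at h5
    rw [← h5 x, Finset.mem_compl, not_not]

end Cfsg.Agent.H22.Mx
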