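import Cfsg.Agent.LibH22Mx3

set_option autoImplicit false

/-! Overgroups of Sylow 2-subgroups of symmetric and alternating groups, IV (seat helper22). -/

namespace Cfsg.Agent.H22.Mx

open Equiv MulAction
open scoped Pointwise

lemma uniq_iso {G H : Type*} [Group G] [Group H] (φ : G ≃* H) (R : Subgroup G) (P : Subgroup H) (hP : P = R.map φ.toMonoidHom)
    (h : ∃! M : Subgroup H, IsCoatom M ∧ P ≤ M) : ∃! M : Subgroup G, IsCoatom M ∧ R ≤ M := by
  obtain ⟨M, ⟨h1, h2⟩, h3⟩ := h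
  have e : ∀ K : Subgroup G, φ.mapSubgroup K = K.map φ.toMonoidHom := fun K => rfl
  refine ⟨φ.mapSubgroup.symm M, ⟨(OrderIso.isCoatom_iff φ.mapSubgroup.symm M).2 h1, ?_⟩, ?_⟩
  · rw [← φ.mapSubgroup.le_iff_le, OrderIso.apply_symm_apply, e, ← hP]; exact h2
  · rintro K ⟨k1, k2⟩
    rw [← h3 (φ.mapSubgroup K) ⟨(OrderIso.isCoatom_iff φ.mapSubgroup K).2 k1, by rw [hP, ← e]; exact (φ.mapSubgroup.le_iff_le).2 k2⟩,
      OrderIso.symm_apply_apply]

section claim1
variable {G : Type*} [Group G] [Finite G] {ι : Type} [AddCommGroup ι] [Fintype ι] [DecidableEq ι] {ψ : G →* Perm (Option (ι × KK))}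

theorem claim1 (h2 : ∀ a : ι, a + a = 0) (hψ : Function.Injective ψ) (hA : alternatingGroup (Option (ι × KK)) ≤ ψ.range) (R : Sylow 2 G) :
    ∃! M : Subgroup G, IsCoatom M ∧ (R : Subgroup G) ≤ M := by
  have hQA : QQ ι ≤ alternatingGroup (Option (ι × KK)) := fun g hg => Perm.mem_alternatingGroup.2 hg.1
  have hQp : IsPGroup 2 ((QQ ι).comap ψ) := (QQ_isPGroup h2).comap_of_injective ψ hψ
  obtain ⟨P, hP⟩ := hQp.exists_le_sylow
  obtain ⟨g, hg⟩ := MulAction.exists_smul_eq G R P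
  refine uniq_iso (MulAut.conj g) (R : Subgroup G) (P : Subgroup G) (by rw [← hg]; rfl) ?_
  have hQ : ∀ {M : Subgroup G}, (P : Subgroup G) ≤ M → QQ ι ≤ M.map ψ := by
    intro M hM x hx
    obtain ⟨y, rfl⟩ := hA (hQA hx)
    exact ⟨y, hM (hP hx), rfl⟩
  have hpt : ∀ y ∈ (P : Subgroup G), ψ y none = none := by
    have hPm : IsPGroup 2 ((P : Subgroup G).map ψ) := P.isPGroup'.map ψ
    obtain ⟨x, hx⟩ := fixed_point hPm (by
      rw [Fintype.card_option, Fintype.card_prod]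
      have : Fintype.card KK = 4 := by decide
      rw [this]; omega)
    rcases x with _ | ⟨i, v⟩
    · exact fun y hy => hx _ ⟨y, hy, rfl⟩
    · exfalso
      have : ∃ w : KK, w ≠ v := by
        obtain ⟨w, _, _, hw, _⟩ := KK3 v
        exact ⟨w, hw.symm⟩
      obtain ⟨w, hw⟩ := this
      obtain ⟨t, ht, -, ht2⟩ := QQ_trans i i v w
      have h3 := hx t (hQ le_rfl ht)
      rw [ht2] at h3
      exact hw (congrArg Prod.snd (Option.some.inj h3))
  haveI : Nontrivial (Option (ι × KK)) := ⟨none, some (0, 0), by simp⟩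
  have hfull : ∀ {M : Subgroup G}, (P : Subgroup G) ≤ M → (∃ m ∈ M, ψ m none ≠ none) → M = ⊤ := by
    rintro M hM ⟨m, hm, hm2⟩
    exact full hψ (main1 (hQ hM) ⟨ψ m, ⟨m, hm, rfl⟩, hm2⟩) (odd_index P hM)
  let M0 : Subgroup G := (stabilizer (Perm (Option (ι × KK))) (none : Option (ι × KK))).comap ψ
  have hM0 : ∀ m, m ∈ M0 ↔ ψ m none = none := fun m => Iff.rfl
  have hM0t : M0 ≠ ⊤ := by
    intro h
    have h3 : ∀ m, ψ m none = none := fun m => (hM0 m).1 (by rw [h]; trivial)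
    obtain ⟨a, b, c, d⟩ := KK3 0
    have h4 : swap (none : Option (ι × KK)) (some (0, 0)) * swap (some (0, a)) (some (0, b)) ∈ alternatingGroup (Option (ι × KK)) := by
      rw [Perm.mem_alternatingGroup, map_mul, Perm.sign_swap (by simp), Perm.sign_swap]
      · rfl
      · intro h; exact d.2.2.2.1 (congrArg Prod.snd (Option.some.inj h))
    obtain ⟨y, hy⟩ := hA h4
    have h5 := h3 y
    have h6 : swap (some ((0 : ι), a)) (some ((0 : ι), b)) (none : Option (ι × KK)) = none := swap_apply_of_ne_of_ne (by simp) (by simp)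
    rw [hy, Perm.mul_apply, h6, swap_apply_left] at h5
    exact Option.some_ne_none _ h5
  have hPM0 : (P : Subgroup G) ≤ M0 := fun y hy => hpt y hy
  have hco : ∀ M : Subgroup G, (P : Subgroup G) ≤ M → M ≤ M0 ∨ M = ⊤ := by
    intro M hM
    by_cases h : M ≤ M0
    · exact Or.inl h
    · right
      obtain ⟨m, hm, hm2⟩ := SetLike.not_le_iff_exists.1 h
      exact hfull hM ⟨m, hm, hm2⟩
  refine ⟨M0, ⟨⟨hM0t, fun M hM => ?_⟩, hPM0⟩, ?_⟩
  · rcases hco M (hPM0.trans hM.le) with h | h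
    · exact absurd h (not_le_of_gt hM)
    · exact h
  · rintro M ⟨h3, h4⟩
    rcases hco M h4 with h | h
    · rcases h.lt_or_eq with h5 | h5
      · exact absurd (h3.2 _ h5) hM0t
      · exact h5
    · exact absurd h h3.1

end claim1

section claim2
variable {G : Type*} [Group G] [Finite G] {α : Type*} [Fintype α] [DecidableEq α] {ψ : G →* Perm α}

/-- a double transposition is even -/
lemma dt_even {a b c d : α} (h1 : a ≠ b) (h2 : c ≠ d) : swap a b * swap c d ∈ alternatingGroup α := by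
  rw [Perm.mem_alternatingGroup, map_mul, Perm.sign_swap h1, Perm.sign_swap h2]; rfl

/-- the swap type elements of the centraliser of an involution -/
lemma comm_dt {τ : Perm α} (hτ : ∀ x, τ (τ x) = x) (hτ1 : ∀ x, τ x ≠ x) {y z : α} (hz : z ≠ τ y) :
    (swap y z * swap (τ y) (τ z)) * τ = τ * (swap y z * swap (τ y) (τ z)) := by
  have e1 : τ * swap y z * τ⁻¹ = swap (τ y) (τ z) := (Equiv.swap_apply_apply τ y z).symm
  have e2 : τ * swap (τ y) (τ z) * τ⁻¹ = swap y z := by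
    have := (Equiv.swap_apply_apply τ (τ y) (τ z)).symm
    rwa [hτ, hτ] at this
  have hy : y ≠ τ z := fun h => hz (by rw [h, hτ])
  have e3 : swap y z * swap (τ y) (τ z) = swap (τ y) (τ z) * swap y z := swap_comm_of (hτ1 y).symm hy hz (hτ1 z).symm
  calc (swap y z * swap (τ y) (τ z)) * τ = (swap (τ y) (τ z) * swap y z) * τ := by rw [e3]
    _ = (τ * swap y z * τ⁻¹) * (τ * swap (τ y) (τ z) * τ⁻¹) * τ := by rw [e1, e2]
    _ = τ * (swap y z * swap (τ y) (τ z)) := by group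

lemma swap_pair_comm {τ : Perm α} (hτ : ∀ x, τ (τ x) = x) (y : α) : swap y (τ y) * τ = τ * swap y (τ y) := by
  have e1 : τ * swap y (τ y) * τ⁻¹ = swap y (τ y) := by
    have := (Equiv.swap_apply_apply τ y (τ y)).symm
    rw [hτ] at this
    rw [this, swap_comm]
  calc swap y (τ y) * τ = (τ * swap y (τ y) * τ⁻¹) * τ := by rw [e1]
    _ = τ * swap y (τ y) := by group

/-- even element of the centraliser of `τ` moving `y` to `z` -/
lemma ex_comm {τ : Perm α} (hτ : ∀ x, τ (τ x) = x) (hτ1 : ∀ x, τ x ≠ x) {y z : α} (hyz : y ≠ z) (hz : z ≠ τ y) :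
    ∃ σ ∈ alternatingGroup α, σ * τ = τ * σ ∧ σ y = z ∧ ∀ x, x ≠ y → x ≠ z → x ≠ τ y → x ≠ τ z → σ x = x := by
  have hy : y ≠ τ z := fun h => hz (by rw [h, hτ])
  refine ⟨_, dt_even hyz (fun h => hyz (τ.injective h)), comm_dt hτ hτ1 hz, ?_, ?_⟩
  · rw [Perm.mul_apply, swap_apply_of_ne_of_ne (hτ1 y).symm hy, swap_apply_left]
  · intro x h1 h2 h3 h4
    rw [Perm.mul_apply, swap_apply_of_ne_of_ne h3 h4, swap_apply_of_ne_of_ne h1 h2]

lemma ex_comm2 {τ : Perm α} (hτ : ∀ x, τ (τ x) = x) (hτ1 : ∀ x, τ x ≠ x) {y w : α} (h1 : w ≠ y) (h2 : w ≠ τ y) :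
    ∃ σ ∈ alternatingGroup α, σ * τ = τ * σ ∧ σ y = τ y ∧ ∀ x, x ≠ y → x ≠ τ y → x ≠ w → x ≠ τ w → σ x = x := by
  have hy : y ≠ τ w := fun h => h2 (by rw [h, hτ])
  refine ⟨swap y (τ y) * swap w (τ w), dt_even (hτ1 y).symm (hτ1 w).symm, ?_, ?_, ?_⟩
  · rw [mul_assoc, swap_pair_comm hτ, ← mul_assoc, swap_pair_comm hτ, mul_assoc]
  · rw [Perm.mul_apply, swap_apply_of_ne_of_ne h1.symm hy, swap_apply_left]
  · intro x h1 h2 h3 h4
    rw [Perm.mul_apply, swap_apply_of_ne_of_ne h3 h4, swap_apply_of_ne_of_ne h1 h2]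

/-- the case when `n` is not a power of two -/
lemma claim2a (hψ : Function.Injective ψ) (hA : alternatingGroup α ≤ ψ.range) (R : Sylow 2 G) {S : Finset α}
    (hS : ∀ g ∈ (R : Subgroup G), ∀ x, ψ g x ∈ S ↔ x ∈ S) (hS1 : S.Nonempty) (hS2 : Sᶜ.Nonempty) (hS3 : Fintype.card α ≠ 2 * S.card)
    {K : Subgroup (Perm α)} (hK : ∀ g ∈ (R : Subgroup G), ψ g ∈ K) (hK1 : ∃ σ ∈ alternatingGroup α, σ ∉ K)
    (hK2 : ∃ σ ∈ alternatingGroup α, σ ∈ K ∧ ∃ x ∈ S, σ x ∉ S) : ¬ ∃! M : Subgroup G, IsCoatom M ∧ (R : Subgroup G) ≤ M := by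
  rintro ⟨M, ⟨h1, h2⟩, h3⟩
  have hle : ∀ {L : Subgroup G}, L ≠ ⊤ → (R : Subgroup G) ≤ L → L ≤ M := fun hL hRL => le_unique (fun M' k1 k2 => h3 M' ⟨k1, k2⟩) hL hRL
  have hKM : K.comap ψ ≤ M := by
    apply hle
    · intro h
      obtain ⟨σ, hσ, hσK⟩ := hK1
      obtain ⟨g, rfl⟩ := hA hσ
      apply hσK
      have : g ∈ K.comap ψ := by rw [h]; trivial
      exact this
    · exact fun g hg => hK g hg
  haveI : Nontrivial α := by
    obtain ⟨x, hx⟩ := hS1
    obtain ⟨y, hy⟩ := hS2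
    exact ⟨x, y, fun h => Finset.mem_compl.1 hy (h ▸ hx)⟩
  have hst : ∀ σ : Perm α, σ ∈ stabilizer (Perm α) (S : Set α) ↔ ∀ x, σ x ∈ S ↔ x ∈ S := by
    intro σ
    rw [mem_stabilizer_set]
    rfl
  have hco := alternatingGroup.isCoatom_stabilizer (α := α) (s := (S : Set α)) hS1 (by rw [← Finset.coe_compl]; exact hS2)
    (by rw [Nat.card_eq_fintype_card, Set.ncard_coe_finset]; exact hS3)
  have hSM : (stabilizer (Perm α) (S : Set α)).comap ψ ≤ M := by
    apply hle
    · intro h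
      apply hco.1
      rw [eq_top_iff]
      rintro ⟨σ, hσ⟩ -
      obtain ⟨g, rfl⟩ := hA hσ
      have : g ∈ (stabilizer (Perm α) (S : Set α)).comap ψ := by rw [h]; trivial
      exact this
    · intro g hg
      exact (hst _).2 (hS g hg)
  have hN : stabilizer (alternatingGroup α) (S : Set α) ≤ (M.map ψ).subgroupOf (alternatingGroup α) := by
    rintro ⟨σ, hσ⟩ h
    obtain ⟨g, rfl⟩ := hA hσ
    exact ⟨g, hSM h, rfl⟩
  rcases hN.lt_or_eq with h | h
  · have h5 := hco.2 _ h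
    apply h1.1
    refine full hψ (fun σ hσ => ?_) (odd_index R h2)
    have : (⟨σ, hσ⟩ : alternatingGroup α) ∈ (M.map ψ).subgroupOf (alternatingGroup α) := by rw [h5]; trivial
    exact this
  · obtain ⟨σ, hσ, hσK, x, hx, hx2⟩ := hK2
    have : (⟨σ, hσ⟩ : alternatingGroup α) ∈ (M.map ψ).subgroupOf (alternatingGroup α) := by
      obtain ⟨g, rfl⟩ := hA hσ
      exact ⟨g, hKM hσK, rfl⟩
    rw [← h] at this
    have h6 : σ ∈ stabilizer (Perm α) (S : Set α) := this
    exact hx2 (((hst σ).1 h6 x).2 hx)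

/-- stabilizer of a halving -/
def HS (S : Finset α) : Subgroup (Perm α) where
  carrier := {σ | (∀ x, σ x ∈ S ↔ x ∈ S) ∨ (∀ x, σ x ∈ S ↔ x ∉ S)}
  one_mem' := Or.inl fun x => Iff.rfl
  mul_mem' := by
    rintro g h (h1 | h1) (h2 | h2)
    · exact Or.inl fun x => by rw [Perm.mul_apply, h1, h2]
    · exact Or.inr fun x => by rw [Perm.mul_apply, h1, h2]
    · exact Or.inr fun x => by rw [Perm.mul_apply, h1, h2]
    · exact Or.inl fun x => by rw [Perm.mul_apply, h1, h2, not_not]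
  inv_mem' := by
    rintro g (h1 | h1)
    · exact Or.inl fun x => by rw [← h1 (g⁻¹ x)]; simp
    · exact Or.inr fun x => by
        have := h1 (g⁻¹ x)
        have e : g (g⁻¹ x) = x := by simp
        rw [e] at this
        rw [this, not_not]

lemma swap_side {S : Finset α} {a b : α} (h : a ∈ S ↔ b ∈ S) (x : α) : swap a b x ∈ S ↔ x ∈ S := by
  rw [swap_apply_def]
  split_ifs with h1 h2
  · rw [h1, h]
  · rw [h2, h]
  · rfl

lemma exists_notin {T : Finset α} (h : T.card < Fintype.card α) : ∃ w, w ∉ T := by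
  by_contra hcon
  push Not at hcon
  have : T = Finset.univ := Finset.eq_univ_iff_forall.2 hcon
  rw [this, Finset.card_univ] at h
  exact lt_irrefl _ h

lemma exists_side {S : Finset α} {y : α} {T : Finset α} (h1 : T.card < S.card) (h2 : T.card < Sᶜ.card) : ∃ w, (w ∈ S ↔ y ∈ S) ∧ w ∉ T := by
  by_cases hy : y ∈ S
  · obtain ⟨w, hw, hwT⟩ := Finset.exists_mem_notMem_of_card_lt_card h1
    exact ⟨w, by simp [hw, hy], hwT⟩
  · obtain ⟨w, hw, hwT⟩ := Finset.exists_mem_notMem_of_card_lt_card h2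
    exact ⟨w, by simp [Finset.mem_compl.1 hw, hy], hwT⟩

/-- the case when `n` is a power of two -/
lemma claim2b (hψ : Function.Injective ψ) (hA : alternatingGroup α ≤ ψ.range) (R : Sylow 2 G) {a : ℕ} (ha : 2 ≤ a) (hα : Fintype.card α = 2 * 2 ^ a) :
    ¬ ∃! M : Subgroup G, IsCoatom M ∧ (R : Subgroup G) ≤ M := by
  have h4 : 4 ≤ 2 ^ a := by
    calc 4 = 2 ^ 2 := by norm_num
      _ ≤ 2 ^ a := Nat.pow_le_pow_right (by norm_num) ha
  rintro ⟨M, ⟨h1, h2⟩, h3⟩
  have hle : ∀ {L : Subgroup G}, L ≠ ⊤ → (R : Subgroup G) ≤ L → L ≤ M := fun hL hRL => le_unique (fun M' k1 k2 => h3 M' ⟨k1, k2⟩) hL hRL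
  have hRm : IsPGroup 2 ((R : Subgroup G).map ψ) := R.isPGroup'.map ψ
  obtain ⟨S, hS, hSR⟩ := fixed_half hRm hα
  obtain ⟨τ, hτ1, hτ2, hτR⟩ := fixed_inv hRm (by omega) hα
  have hτ : ∀ x, τ (τ x) = x := fun x => by rw [← Perm.mul_apply, hτ2]; rfl
  have hSc : Sᶜ.card = 2 ^ a := by rw [Finset.card_compl, hα, hS]; omega
  have hM : ∀ K : Subgroup (Perm α), (∃ σ ∈ alternatingGroup α, σ ∉ K) → (∀ g ∈ (R : Subgroup G), ψ g ∈ K) → ∀ σ ∈ alternatingGroup α, σ ∈ K → σ ∈ M.map ψ := by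
    rintro K ⟨σ0, hσ0, hσ0K⟩ hK σ hσ hσK
    have : K.comap ψ ≤ M := by
      apply hle
      · intro h
        obtain ⟨g, rfl⟩ := hA hσ0
        apply hσ0K
        have : g ∈ K.comap ψ := by rw [h]; trivial
        exact this
      · exact fun g hg => hK g hg
    obtain ⟨g, rfl⟩ := hA hσ
    exact ⟨g, this hσK, rfl⟩
  have h3cyc : ∀ {y z w : α}, y ≠ z → z ≠ w → swap y z * swap z w ∈ alternatingGroup α := fun h1 h2 => dt_even h1 h2
  have c3 : ∀ x y z : α, ({x, y, z} : Finset α).card ≤ 3 := fun x y z => Finset.card_le_three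
  have c4 : ∀ x y z w : α, ({x, y, z, w} : Finset α).card ≤ 4 := fun x y z w => Finset.card_le_four
  -- halving stabilizer
  have hH : ∀ σ ∈ alternatingGroup α, σ ∈ HS S → σ ∈ M.map ψ := by
    apply hM
    · obtain ⟨x, hx⟩ : S.Nonempty := by rw [← Finset.card_pos]; omega
      obtain ⟨z, hz⟩ : Sᶜ.Nonempty := by rw [← Finset.card_pos]; omega
      rw [Finset.mem_compl] at hz
      obtain ⟨u, hu, hu1⟩ := Finset.exists_mem_notMem_of_card_lt_card (s := {x}) (t := S) (by rw [Finset.card_singleton]; omega)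
      obtain ⟨v, hv, hv1⟩ := Finset.exists_mem_notMem_of_card_lt_card (s := {x, u}) (t := S) (by have := Finset.card_le_two (a := x) (b := u); omega)
      obtain ⟨y, hy, hy1⟩ := Finset.exists_mem_notMem_of_card_lt_card (s := {x, u, v}) (t := S) (by have := c3 x u v; omega)
      simp only [Finset.mem_singleton, Finset.mem_insert, not_or] at hu1 hv1 hy1
      have hxz : x ≠ z := fun h => hz (h ▸ hx)
      have huz : u ≠ z := fun h => hz (h ▸ hu)
      have hvz : v ≠ z := fun h => hz (h ▸ hv)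
      have hyz : y ≠ z := fun h => hz (h ▸ hy)
      refine ⟨swap x z * swap u v, dt_even hxz (Ne.symm hv1.2), ?_⟩
      rintro (h | h)
      · have := h x
        rw [Perm.mul_apply, swap_apply_of_ne_of_ne (Ne.symm hu1) (Ne.symm hv1.1), swap_apply_left] at this
        exact hz (this.2 hx)
      · have := h y
        rw [Perm.mul_apply, swap_apply_of_ne_of_ne hy1.2.1 hy1.2.2, swap_apply_of_ne_of_ne hy1.1 hyz] at this
        exact (this.1 hy) hy
    · intro g hg
      exact hSR _ ⟨g, hg, rfl⟩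
  have hC : ∀ σ ∈ alternatingGroup α, σ * τ = τ * σ → σ ∈ M.map ψ := by
    intro σ hσ hστ
    refine hM (Subgroup.centralizer {τ}) ?_ ?_ σ hσ ?_
    · obtain ⟨y, -⟩ : S.Nonempty := by rw [← Finset.card_pos]; omega
      obtain ⟨z, hz⟩ := exists_notin (T := {y, τ y}) (by have := Finset.card_le_two (a := y) (b := τ y); omega)
      obtain ⟨w, hw⟩ := exists_notin (T := {y, z, τ y}) (by have := c3 y z (τ y); omega)
      simp only [Finset.mem_singleton, Finset.mem_insert, not_or] at hz hw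
      refine ⟨swap y z * swap z w, h3cyc (Ne.symm hz.1) (Ne.symm hw.2.1), ?_⟩
      intro h
      rw [Subgroup.mem_centralizer_iff] at h
      have h5 := congrArg (fun t : Perm α => t y) (h τ rfl)
      simp only [Perm.mul_apply] at h5
      rw [swap_apply_of_ne_of_ne (Ne.symm hz.1) (Ne.symm hw.1), swap_apply_left, swap_apply_of_ne_of_ne (Ne.symm hz.2) (Ne.symm hw.2.2),
        swap_apply_of_ne_of_ne (hτ1 y) (Ne.symm hz.2)] at h5
      exact hz.1 (τ.injective h5)
    · intro g hg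
      rw [Subgroup.mem_centralizer_iff]
      rintro _ rfl
      exact (hτR _ ⟨g, hg, rfl⟩).symm
    · rw [Subgroup.mem_centralizer_iff]
      rintro _ rfl
      exact hστ.symm
  obtain ⟨x, -⟩ : S.Nonempty := by rw [← Finset.card_pos]; omega
  let rel : α → α → Prop := fun y z => ∃ g ∈ M.map ψ, g x = x ∧ g y = z
  have rrefl : ∀ y, rel y y := fun y => ⟨1, one_mem _, rfl, rfl⟩
  have rtrans : ∀ {y z w}, rel y z → rel z w → rel y w := by
    rintro y z w ⟨g, hg, g1, g2⟩ ⟨h, hh, k1, k2⟩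
    exact ⟨h * g, mul_mem hh hg, by rw [Perm.mul_apply, g1, k1], by rw [Perm.mul_apply, g2, k2]⟩
  have r1 : ∀ {y z}, y ≠ x → z ≠ x → (z ∈ S ↔ y ∈ S) → rel y z := by
    intro y z hy hz hyz
    by_cases hne : y = z
    · subst hne; exact rrefl y
    obtain ⟨w, hw1, hw2⟩ := exists_side (S := S) (y := y) (T := {x, y, z}) (by have := c3 x y z; omega) (by have := c3 x y z; omega)
    simp only [Finset.mem_singleton, Finset.mem_insert, not_or] at hw2
    refine ⟨swap y z * swap z w, hH _ (h3cyc hne (Ne.symm hw2.2.2)) (Or.inl fun t => ?_), ?_, ?_⟩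
    · rw [Perm.mul_apply, swap_side hyz.symm, swap_side (hyz.trans hw1.symm)]
    · rw [Perm.mul_apply, swap_apply_of_ne_of_ne hz.symm (Ne.symm hw2.1), swap_apply_of_ne_of_ne hy.symm hz.symm]
    · rw [Perm.mul_apply, swap_apply_of_ne_of_ne hne (Ne.symm hw2.2.1), swap_apply_left]
  have r2 : ∀ {y z}, y ≠ x → y ≠ τ x → z ≠ x → z ≠ τ x → rel y z := by
    intro y z hy hy' hz hz'
    by_cases hne : y = z
    · subst hne; exact rrefl y
    have e1 : x ≠ τ y := fun h => hy' (by rw [h, hτ])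
    have e2 : x ≠ τ z := fun h => hz' (by rw [h, hτ])
    by_cases hzy : z = τ y
    · obtain ⟨w, hw⟩ := exists_notin (T := {y, τ y, x, τ x}) (by have := c4 y (τ y) x (τ x); omega)
      simp only [Finset.mem_singleton, Finset.mem_insert, not_or] at hw
      obtain ⟨σ, s1, s2, s3, s4⟩ := ex_comm2 hτ hτ1 (y := y) (w := w) hw.1 hw.2.1
      refine ⟨σ, hC σ s1 s2, s4 x hy.symm e1 (Ne.symm hw.2.2.1) (fun h => hw.2.2.2 (by rw [h, hτ])), by rw [s3, hzy]⟩
    · obtain ⟨σ, s1, s2, s3, s4⟩ := ex_comm hτ hτ1 hne hzy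
      exact ⟨σ, hC σ s1 s2, s4 x hy.symm hz.symm e1 e2, s3⟩
  have hprim : IsPreprimitive (M.map ψ) α := by
    apply prim_of_two _ x
    · obtain ⟨z, hz⟩ := exists_notin (T := {x, τ x}) (by have := Finset.card_le_two (a := x) (b := τ x); omega)
      simp only [Finset.mem_singleton, Finset.mem_insert, not_or] at hz
      obtain ⟨σ, s1, s2, s3, s4⟩ := ex_comm hτ hτ1 (Ne.symm hz.1) hz.2
      exact ⟨σ, hC σ s1 s2, by rw [s3]; exact hz.1⟩
    · intro y z hy hz
      by_cases hyz : z ∈ S ↔ y ∈ S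
      · exact r1 hy hz hyz
      · obtain ⟨y', y1, y2⟩ := exists_side (S := S) (y := y) (T := {x, τ x}) (by have := Finset.card_le_two (a := x) (b := τ x); omega) (by have := Finset.card_le_two (a := x) (b := τ x); omega)
        obtain ⟨z', z1, z2⟩ := exists_side (S := S) (y := z) (T := {x, τ x}) (by have := Finset.card_le_two (a := x) (b := τ x); omega) (by have := Finset.card_le_two (a := x) (b := τ x); omega)
        simp only [Finset.mem_singleton, Finset.mem_insert, not_or] at y2 z2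
        exact rtrans (rtrans (r1 hy y2.1 y1) (r2 y2.1 y2.2 z2.1 z2.2)) (r1 z2.1 hz z1.symm)
  obtain ⟨y, hy⟩ : S.Nonempty := by rw [← Finset.card_pos]; omega
  obtain ⟨z, hz, hz1⟩ := Finset.exists_mem_notMem_of_card_lt_card (s := {y}) (t := S) (by rw [Finset.card_singleton]; omega)
  obtain ⟨w, hw, hw1⟩ := Finset.exists_mem_notMem_of_card_lt_card (s := {y, z}) (t := S) (by have := Finset.card_le_two (a := y) (b := z); omega)
  simp only [Finset.mem_singleton, Finset.mem_insert, not_or] at hz1 hw1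
  have t3 : (swap y z * swap y w).IsThreeCycle := Perm.isThreeCycle_swap_mul_swap_same (Ne.symm hz1) (Ne.symm hw1.1) (Ne.symm hw1.2)
  have t4 : swap y z * swap y w ∈ M.map ψ := by
    refine hH _ (dt_even (Ne.symm hz1) (Ne.symm hw1.1)) (Or.inl fun t => ?_)
    rw [Perm.mul_apply, swap_side (by simp [hy, hz]), swap_side (by simp [hy, hw])]
  haveI : Nontrivial α := ⟨y, z, Ne.symm hz1⟩
  exact h1.1 (full hψ (Perm.alternatingGroup_le_of_isPreprimitive_of_isThreeCycle_mem hprim t3 t4) (odd_index R h2))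

/-- nonuniqueness in general -/
theorem claim2 (hψ : Function.Injective ψ) (hA : alternatingGroup α ≤ ψ.range) (R : Sylow 2 G) {n : ℕ} (hα : Fintype.card α = n) (hn : 5 ≤ n)
    (hk : ¬ ∃ k : ℕ, 2 ≤ k ∧ n = 2 ^ k + 1) : ¬ ∃! M : Subgroup G, IsCoatom M ∧ (R : Subgroup G) ≤ M := by
  obtain ⟨a, ha1, ha2⟩ : ∃ a, 2 ^ a ≤ n ∧ n < 2 ^ (a + 1) := ⟨Nat.log 2 n, Nat.pow_log_le_self 2 (by omega), Nat.lt_pow_succ_log_self (by norm_num) n⟩
  have ha : 2 ≤ a := by
    by_contra hcon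
    have : 2 ^ (a + 1) ≤ 2 ^ 2 := Nat.pow_le_pow_right (by norm_num) (by omega)
    omega
  rcases ha1.eq_or_lt with he | hlt
  · obtain ⟨b, rfl⟩ : ∃ b, a = b + 1 := ⟨a - 1, by omega⟩
    refine claim2b hψ hA R (a := b) ?_ (by rw [hα, ← he, pow_succ]; ring)
    by_contra hcon
    have : 2 ^ (b + 1) ≤ 2 ^ 2 := Nat.pow_le_pow_right (by norm_num) (by omega)
    omega
  have h4 : 4 ≤ 2 ^ a := by
    calc 4 = 2 ^ 2 := by norm_num
      _ ≤ 2 ^ a := Nat.pow_le_pow_right (by norm_num) ha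
  have hRm : IsPGroup 2 ((R : Subgroup G).map ψ) := R.isPGroup'.map ψ
  obtain ⟨S, hS, hSR⟩ := fixed_set hRm (s := 2 ^ a) (by rw [hα]; exact choose_top ha1 ha2)
  have hSc : Sᶜ.card = n - 2 ^ a := by rw [Finset.card_compl, hα, hS]
  have hS1 : S.Nonempty := by rw [← Finset.card_pos]; omega
  have hS2 : Sᶜ.Nonempty := by rw [← Finset.card_pos]; omega
  have hS3 : Fintype.card α ≠ 2 * S.card := by
    rw [hα, hS]; rw [pow_succ] at ha2; omega
  have c3 : ∀ x y z : α, ({x, y, z} : Finset α).card ≤ 3 := fun x y z => Finset.card_le_three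
  rcases Nat.even_or_odd' n with ⟨m, hm | hm⟩
  · obtain ⟨τ, hτ1, hτ2, hτR⟩ := fixed_inv hRm (m := m) (by omega) (by rw [hα, hm])
    have hτ : ∀ x, τ (τ x) = x := fun x => by rw [← Perm.mul_apply, hτ2]; rfl
    refine claim2a hψ hA R (fun g hg => hSR _ ⟨g, hg, rfl⟩) hS1 hS2 hS3 (K := Subgroup.centralizer {τ}) ?_ ?_ ?_
    · intro g hg
      rw [Subgroup.mem_centralizer_iff]
      rintro _ rfl
      exact (hτR _ ⟨g, hg, rfl⟩).symm
    · obtain ⟨y, -⟩ := hS1
      obtain ⟨z, hz⟩ := exists_notin (T := {y, τ y}) (by have := Finset.card_le_two (a := y) (b := τ y); omega)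
      obtain ⟨w, hw⟩ := exists_notin (T := {y, z, τ y}) (by have := c3 y z (τ y); omega)
      simp only [Finset.mem_singleton, Finset.mem_insert, not_or] at hz hw
      refine ⟨swap y z * swap z w, dt_even (Ne.symm hz.1) (Ne.symm hw.2.1), ?_⟩
      intro h
      rw [Subgroup.mem_centralizer_iff] at h
      have h5 := congrArg (fun t : Perm α => t y) (h τ rfl)
      simp only [Perm.mul_apply] at h5
      rw [swap_apply_of_ne_of_ne (Ne.symm hz.1) (Ne.symm hw.1), swap_apply_left, swap_apply_of_ne_of_ne (Ne.symm hz.2) (Ne.symm hw.2.2),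
        swap_apply_of_ne_of_ne (hτ1 y) (Ne.symm hz.2)] at h5
      exact hz.1 (τ.injective h5)
    · obtain ⟨z, hz⟩ := hS2
      rw [Finset.mem_compl] at hz
      obtain ⟨y, hy, hy1⟩ := Finset.exists_mem_notMem_of_card_lt_card (s := {τ z}) (t := S) (by rw [Finset.card_singleton]; omega)
      rw [Finset.mem_singleton] at hy1
      obtain ⟨σ, s1, s2, s3, s4⟩ := ex_comm hτ hτ1 (y := y) (z := z) (fun h => hz (h ▸ hy)) (fun h => hy1 (by rw [h, hτ]))
      refine ⟨σ, s1, ?_, y, hy, by rw [s3]; exact hz⟩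
      rw [Subgroup.mem_centralizer_iff]
      rintro _ rfl
      exact s2.symm
  · obtain ⟨x0, hx0⟩ := fixed_point hRm (by rw [hα, hm]; omega)
    have hSc2 : 2 ≤ Sᶜ.card := by
      by_contra hcon
      exact hk ⟨a, ha, by omega⟩
    refine claim2a hψ hA R (fun g hg => hSR _ ⟨g, hg, rfl⟩) hS1 hS2 hS3 (K := stabilizer (Perm α) x0) ?_ ?_ ?_
    · intro g hg
      exact hx0 _ ⟨g, hg, rfl⟩
    · obtain ⟨z, hz⟩ := exists_notin (T := {x0}) (by rw [Finset.card_singleton]; omega)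
      obtain ⟨w, hw⟩ := exists_notin (T := {x0, z}) (by have := Finset.card_le_two (a := x0) (b := z); omega)
      simp only [Finset.mem_singleton, Finset.mem_insert, not_or] at hz hw
      refine ⟨swap x0 z * swap z w, dt_even (Ne.symm hz) (Ne.symm hw.2), ?_⟩
      intro h
      have h5 : (swap x0 z * swap z w) x0 = x0 := h
      rw [Perm.mul_apply, swap_apply_of_ne_of_ne (Ne.symm hz) (Ne.symm hw.1), swap_apply_left] at h5
      exact hz h5
    · obtain ⟨y, hy, hy1⟩ := Finset.exists_mem_notMem_of_card_lt_card (s := {x0}) (t := S) (by rw [Finset.card_singleton]; omega)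
      obtain ⟨z, hz, hz1⟩ := Finset.exists_mem_notMem_of_card_lt_card (s := {x0}) (t := Sᶜ) (by rw [Finset.card_singleton]; omega)
      obtain ⟨w, hw⟩ := exists_notin (T := {y, z, x0}) (by have := c3 y z x0; omega)
      rw [Finset.mem_compl] at hz
      simp only [Finset.mem_singleton, Finset.mem_insert, not_or] at hy1 hz1 hw
      have hyz : y ≠ z := fun h => hz (h ▸ hy)
      refine ⟨swap y z * swap z w, dt_even hyz (Ne.symm hw.2.1), ?_, y, hy, ?_⟩
      · show (swap y z * swap z w) x0 = x0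
        rw [Perm.mul_apply, swap_apply_of_ne_of_ne (Ne.symm hz1) (Ne.symm hw.2.2), swap_apply_of_ne_of_ne (Ne.symm hy1) (Ne.symm hz1)]
      · rw [Perm.mul_apply, swap_apply_of_ne_of_ne hyz (Ne.symm hw.1), swap_apply_left]
        exact hz

end claim2

end Cfsg.Agent.H22.Mx
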