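import Cfsg.Agent.LibH22Fr72
import Cfsg.Agent.LibH22Un4

set_option autoImplicit false

/-! `PSU_3(2)` (seat helper22). -/

namespace Cfsg.Agent.H22

open Module Matrix Cfsg CfsgLib.Un29
open scoped Pointwise

section
variable {F : Type*} [Field F] [Fintype F]

lemma f4_facts (hF : Fintype.card F = 4) : (2 : F) = 0 ∧ (∀ x : F, x ≠ 0 → x ^ 3 = 1) ∧ (∃ w : F, w ^ 2 + w + 1 = 0) := by
  have h2 : (2 : F) = 0 := by
    have h1 : ((Fintype.card F : ℕ) : F) = 0 := Nat.cast_card_eq_zero F
    rw [hF] at h1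
    have : (2 : F) * 2 = 0 := by rw [← h1]; norm_num
    rcases mul_eq_zero.1 this with h | h <;> exact h
  have h3 : ∀ x : F, x ≠ 0 → x ^ 3 = 1 := by
    intro x hx
    have := FiniteField.pow_card_sub_one_eq_one x hx
    rwa [hF] at this
  refine ⟨h2, h3, ?_⟩
  classical
  obtain ⟨x, hx⟩ : ∃ x : F, x ∉ ({0, 1} : Finset F) := by
    by_contra h
    push Not at h
    have h1 := Finset.card_le_card (fun y _ => h y : (Finset.univ : Finset F) ⊆ {0, 1})
    have h3 : ({0, 1} : Finset F).card ≤ 2 := Finset.card_le_two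
    rw [Finset.card_univ] at h1
    omega
  simp only [Finset.mem_insert, Finset.mem_singleton, not_or] at hx
  refine ⟨x, ?_⟩
  have h4 := h3 x hx.1
  have : (x - 1) * (x ^ 2 + x + 1) = 0 := by linear_combination h4
  exact (mul_eq_zero.1 this).resolve_left (sub_ne_zero.2 hx.2)

/-- central scalars -/
lemma exists_scalar_SU3 (hF : Fintype.card F = 4) (a : F) (ha : a ≠ 0) : ∃ Z ∈ Subgroup.center (Cfsg.SU 3 F 2), ∀ x, suM Z *ᵥ x = a • x := by
  obtain ⟨h2, h3, _⟩ := f4_facts hF
  have hdet : (a • (1 : Matrix (Fin 3) (Fin 3) F)).det = 1 := by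
    rw [Matrix.det_smul, Matrix.det_one, mul_one, Fintype.card_fin, h3 a ha]
  refine ⟨⟨⟨a • 1, hdet⟩, ?_⟩, ?_, ?_⟩
  · intro u v
    show hermForm 3 F 2 ((a • (1 : Matrix (Fin 3) (Fin 3) F)) *ᵥ u) ((a • (1 : Matrix (Fin 3) (Fin 3) F)) *ᵥ v) = _
    rw [Matrix.smul_mulVec, Matrix.smul_mulVec, Matrix.one_mulVec, Matrix.one_mulVec]
    unfold hermForm
    refine Finset.sum_congr rfl fun i _ => ?_
    simp only [Pi.smul_apply, smul_eq_mul]
    linear_combination (u i * (v i) ^ 2) * h3 a ha
  · rw [Subgroup.mem_center_iff]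
    intro B
    apply su_ext
    show suM B * (a • (1 : Matrix (Fin 3) (Fin 3) F)) = (a • (1 : Matrix (Fin 3) (Fin 3) F)) * suM B
    simp
  · intro x
    show (a • (1 : Matrix (Fin 3) (Fin 3) F)) *ᵥ x = a • x
    rw [Matrix.smul_mulVec, Matrix.one_mulVec]

lemma card_SU32 (hF : Fintype.card F = 4) : Nat.card (Cfsg.SU 3 F 2) = 216 := by
  have := card_SU (q := 2) (n := 3) (F := F) (by rw [hF]; norm_num) (by norm_num)
  simp only [Finset.prod_range_succ, Finset.prod_range_zero] at this
  norm_num at this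
  omega

lemma card_PSU32 (hF : Fintype.card F = 4) : Nat.card (Cfsg.PSU 3 F 2) = 72 := by
  have h1 := Subgroup.card_eq_card_quotient_mul_card_subgroup (Subgroup.center (Cfsg.SU 3 F 2))
  rw [card_SU32 hF, card_center_SU (q := 2) (n := 3) (F := F) (by rw [hF]; norm_num) (by norm_num), show Nat.gcd 3 (2 + 1) = 3 from by norm_num] at h1
  show Nat.card (Cfsg.SU 3 F 2 ⧸ Subgroup.center (Cfsg.SU 3 F 2)) = 72
  omega

/-- the main structure theorem -/
theorem psu32 (hF : Fintype.card F = 4) : ∃ (N : Subgroup (Cfsg.PSU 3 F 2)) (_ : N.Normal), Nat.card N = 9 ∧ (∀ x ∈ N, x ^ 3 = 1) ∧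
    Nonempty (Cfsg.PSU 3 F 2 ⧸ N ≃* QuaternionGroup 2) := by
  classical
  have hF2 : Fintype.card F = 2 ^ 2 := by rw [hF]; norm_num
  obtain ⟨h2, h3, w, hw⟩ := f4_facts hF
  obtain ⟨σ, hσ, hf⟩ := hermForm_unitary (F := F) 3 hF2
  have hw3 : w ^ 3 = 1 := by linear_combination (w - 1) * hw
  obtain ⟨v, hv⟩ : ∃ v : Fin 3 → F, v = ![1, 1, 0] := ⟨_, rfl⟩
  obtain ⟨v', hv'⟩ : ∃ v' : Fin 3 → F, v' = ![w, w ^ 2, 0] := ⟨_, rfl⟩
  obtain ⟨z, hz⟩ : ∃ z : Fin 3 → F, z = ![0, 0, 1] := ⟨_, rfl⟩
  have hvv : hermForm 3 F 2 v v = 0 := by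
    rw [hv]; unfold hermForm; rw [Fin.sum_univ_three]; simp; linear_combination h2
  have hv'v' : hermForm 3 F 2 v' v' = 0 := by
    rw [hv']; unfold hermForm; rw [Fin.sum_univ_three]; simp; linear_combination (1 + w ^ 3 + 1) * hw3 + h2
  have hvv' : hermForm 3 F 2 v v' = 1 := by
    rw [hv, hv']; unfold hermForm; rw [Fin.sum_univ_three]; simp; linear_combination w * hw3 + hw - h2
  have hv'v : hermForm 3 F 2 v' v = 1 := by rw [hf.herm, hvv', map_one]
  have hzz : hermForm 3 F 2 z z = 1 := by rw [hz]; unfold hermForm; rw [Fin.sum_univ_three]; simp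
  have hvz : hermForm 3 F 2 v z = 0 := by rw [hv, hz]; unfold hermForm; rw [Fin.sum_univ_three]; simp
  have hv'z : hermForm 3 F 2 v' z = 0 := by rw [hv', hz]; unfold hermForm; rw [Fin.sum_univ_three]; simp
  have hzv := swap_eq hf hvz
  have hzv' := swap_eq hf hv'z
  have hv0 : v ≠ 0 := by
    intro h
    have := congrFun h 0
    rw [hv] at this
    simp at this
  have hexp : ∀ y : Fin 3 → F, ∃ a b c : F, y = a • v + b • v' + c • z := by
    intro y
    -- e1 = w^2 v + v', e2 = w v + v'
    refine ⟨y 0 * w ^ 2 + y 1 * w, y 0 + y 1, y 2, ?_⟩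
    rw [hv, hv', hz]
    funext i
    fin_cases i
    · simp; linear_combination (-(y 0)) * hw - (y 1 * w - y 0) * h2
    · simp; linear_combination (-(y 1)) * hw - (y 0 * w ^ 2 - y 1) * h2
    · simp
  have hext : ∀ A B : Cfsg.SU 3 F 2, suM A *ᵥ v = suM B *ᵥ v → suM A *ᵥ v' = suM B *ᵥ v' → suM A *ᵥ z = suM B *ᵥ z → A = B := by
    intro A B h1 h2 h3
    apply su_ext'
    intro x
    obtain ⟨a, b, c, rfl⟩ := hexp x
    simp only [Matrix.mulVec_add, Matrix.mulVec_smul, h1, h2, h3]
  have hσ2 : ∀ x : F, x * σ x = x ^ 3 := by intro x; rw [hσ]; ring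
  -- the transvection
  obtain ⟨T, hT⟩ := exists_su_ut hf hvv (c := 1) (by rw [map_one]; linear_combination h2)
  have hTx : ∀ x, suM T *ᵥ x = x + hermForm 3 F 2 x v • v := by
    intro x; rw [hT, uTrans_mulVec, one_mul]
  have hTv : suM T *ᵥ v = v := by rw [hTx, hvv]; simp
  have hTT : T * T = 1 := by
    apply su_ext'
    intro x
    rw [suM_mul, ← Matrix.mulVec_mulVec, hTx, hTx, hf.add_left, hf.smul_left, hvv, suM_one, Matrix.one_mulVec]
    have : x + hermForm 3 F 2 x v • v + (hermForm 3 F 2 x v + hermForm 3 F 2 x v * 0) • v = x + (2 * hermForm 3 F 2 x v) • v := by module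
    rw [this, h2, zero_mul, zero_smul, add_zero]
  -- analysis of the vector stabiliser
  have hmain : ∀ A : Cfsg.SU 3 F 2, suM A *ᵥ v = v → A = 1 ∨ A = T ∨ A * A = T := by
    intro A hA
    obtain ⟨x, y, s, hAv'⟩ := hexp (suM A *ᵥ v')
    obtain ⟨b, e, c, hAz⟩ := hexp (suM A *ᵥ z)
    have e1 : e = 0 := by
      have := su_herm A z v
      rw [hA, hAz] at this
      simp only [hf.add_left, hf.smul_left, hvv, hv'v, hzv] at this
      linear_combination this
    have e2 : y = 1 := by
      have := su_herm A v' v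
      rw [hA, hAv'] at this
      simp only [hf.add_left, hf.smul_left, hvv, hv'v, hzv] at this
      linear_combination this
    subst e1 e2
    -- determinant
    have e3 : c = 1 := by
      obtain ⟨P, hP⟩ : ∃ P : Matrix (Fin 3) (Fin 3) F, P = Matrix.of fun i j => (![v, v', z] j) i := ⟨_, rfl⟩
      obtain ⟨U, hU⟩ : ∃ U : Matrix (Fin 3) (Fin 3) F, U = !![1, x, b; 0, 1, 0; 0, s, c] := ⟨_, rfl⟩
      have hPU : suM A * P = P * U := by
        ext i j
        have h1 : (suM A * P) i j = (suM A *ᵥ (![v, v', z] j)) i := by rw [hP]; rfl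
        rw [h1, Matrix.mul_apply, Fin.sum_univ_three, hP, hU]
        fin_cases j
        · show (suM A *ᵥ v) i = v i * 1 + v' i * 0 + z i * 0
          rw [hA]; ring
        · show (suM A *ᵥ v') i = v i * x + v' i * 1 + z i * s
          rw [hAv']; simp only [Pi.add_apply, Pi.smul_apply, smul_eq_mul]; ring
        · show (suM A *ᵥ z) i = v i * b + v' i * 0 + z i * c
          rw [hAz]; simp only [Pi.add_apply, Pi.smul_apply, smul_eq_mul]; ring
      have hdP : P.det ≠ 0 := by
        rw [hP, Matrix.det_fin_three]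
        simp only [Matrix.of_apply, hv, hv', hz]
        have : w ^ 2 - w = 1 := by linear_combination hw - (w + 1) * h2
        simp [this]
      have h1 := congrArg Matrix.det hPU
      rw [Matrix.det_mul, Matrix.det_mul, (show (suM A).det = 1 from A.1.2), one_mul] at h1
      have h4 : U.det = 1 := by
        have : P.det * (U.det - 1) = 0 := by linear_combination -h1
        exact sub_eq_zero.1 ((mul_eq_zero.1 this).resolve_left hdP)
      rw [hU, Matrix.det_fin_three] at h4
      simp at h4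
      exact h4
    subst e3
    have e4 : s + σ b = 0 := by
      have := su_herm A v' z
      rw [hAv', hAz] at this
      simp only [hf.add_left, add_right hf, hf.smul_left, smul_right hf, hvv, hv'v, hzv, hvv', hv'v', hzv', hvz, hv'z, hzz, map_one, map_zero] at this
      linear_combination this
    have e5 : x + σ x + s * σ s = 0 := by
      have := su_herm A v' v'
      rw [hAv'] at this
      simp only [hf.add_left, add_right hf, hf.smul_left, smul_right hf, hvv, hv'v, hzv, hvv', hv'v', hzv', hvz, hv'z, hzz, map_one, map_zero] at this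
      linear_combination this
    by_cases hb : b = 0
    · subst hb
      have hs : s = 0 := by rw [map_zero, add_zero] at e4; exact e4
      subst hs
      have hx : x * (x - 1) = 0 := by
        rw [map_zero, hσ] at e5
        linear_combination e5 - x * h2
      rcases mul_eq_zero.1 hx with h | h
      · left
        apply hext
        · rw [hA, suM_one, Matrix.one_mulVec]
        · rw [hAv', h, suM_one, Matrix.one_mulVec]; module
        · rw [hAz, suM_one, Matrix.one_mulVec]; module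
      · right; left
        have h' : x = 1 := sub_eq_zero.1 h
        apply hext
        · rw [hA, hTv]
        · rw [hAv', hTx, hv'v, h']; module
        · rw [hAz, hTx, hzv]; module
    · right; right
      have hsb : s * b = 1 := by
        have h5 : s = σ b := by linear_combination e4 - σ b * h2
        rw [h5, mul_comm, hσ2, h3 b hb]
      apply hext
      · rw [suM_mul, ← Matrix.mulVec_mulVec, hA, hA, hTv]
      · rw [suM_mul, ← Matrix.mulVec_mulVec, hAv', Matrix.mulVec_add, Matrix.mulVec_add, Matrix.mulVec_smul, Matrix.mulVec_smul, Matrix.mulVec_smul, hA, hAv', hAz, hTx, hv'v]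
        have : x • v + (1 : F) • (x • v + (1 : F) • v' + s • z) + s • (b • v + (0 : F) • v' + (1 : F) • z) = v' + (s * b) • v + (2 * x) • v + (2 * s) • z := by module
        rw [this, hsb, h2]; module
      · rw [suM_mul, ← Matrix.mulVec_mulVec, hAz, Matrix.mulVec_add, Matrix.mulVec_add, Matrix.mulVec_smul, Matrix.mulVec_smul, Matrix.mulVec_smul, hA, hAv', hAz, hTx, hzv]
        have : b • v + (0 : F) • (x • v + (1 : F) • v' + s • z) + (1 : F) • (b • v + (0 : F) • v' + (1 : F) • z) = z + (2 * b) • v := by module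
        rw [this, h2]; module
  -- the stabiliser of the line
  obtain ⟨St, hSt⟩ : ∃ St : Subgroup (Cfsg.SU 3 F 2), ∀ A, A ∈ St ↔ ∃ a : F, suM A *ᵥ v = a • v := by
    refine ⟨{ carrier := {A | ∃ a : F, suM A *ᵥ v = a • v}, mul_mem' := ?_, one_mem' := ?_, inv_mem' := ?_ }, fun A => Iff.rfl⟩
    · rintro A B ⟨a, ha⟩ ⟨b, hb⟩
      exact ⟨b * a, by rw [suM_mul, ← Matrix.mulVec_mulVec, hb, Matrix.mulVec_smul, ha, smul_smul]⟩
    · exact ⟨1, by rw [suM_one, Matrix.one_mulVec, one_smul]⟩
    · rintro A ⟨a, ha⟩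
      have ha0 : a ≠ 0 := by
        rintro rfl
        have h4 : suM A⁻¹ *ᵥ (suM A *ᵥ v) = v := by rw [Matrix.mulVec_mulVec, ← suM_mul, inv_mul_cancel, suM_one, Matrix.one_mulVec]
        rw [ha, zero_smul, Matrix.mulVec_zero] at h4
        exact hv0 h4.symm
      refine ⟨a⁻¹, ?_⟩
      have h4 : suM A⁻¹ *ᵥ (suM A *ᵥ v) = v := by rw [Matrix.mulVec_mulVec, ← suM_mul, inv_mul_cancel, suM_one, Matrix.one_mulVec]
      rw [ha, Matrix.mulVec_smul] at h4
      rw [← h4, smul_smul, inv_mul_cancel₀ ha0, one_smul, h4]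
  have hcen : Subgroup.center (Cfsg.SU 3 F 2) ≤ St := by
    intro A hA
    obtain ⟨μ, hμ⟩ := center_SU_scalar hF2 (by norm_num) hA
    rw [hSt]
    refine ⟨μ, ?_⟩
    have : suM A = Matrix.scalar (Fin 3) μ := hμ
    rw [this, Matrix.scalar_apply, ← Matrix.smul_one_eq_diagonal, Matrix.smul_mulVec, Matrix.one_mulVec]
  have hcSt : Nat.card St = 24 := by
    have e1 := card_stab_GU (q := 2) (n := 3) (F := F) hF2 (k := 1) (by norm_num) (Submodule.span F {v}) (finrank_span_singleton hv0) (by
      intro a ha b hb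
      obtain ⟨k, rfl⟩ := Submodule.mem_span_singleton.1 ha
      obtain ⟨l, rfl⟩ := Submodule.mem_span_singleton.1 hb
      rw [hf.smul_left, smul_right hf, hvv]; ring)
    have e2 := card_stab_SU (q := 2) (n := 3) (F := F) hF2 (k := 1) (by norm_num) (Submodule.span F {v}) (finrank_span_singleton hv0) (by
      intro a ha b hb
      obtain ⟨k, rfl⟩ := Submodule.mem_span_singleton.1 ha
      obtain ⟨l, rfl⟩ := Submodule.mem_span_singleton.1 hb
      rw [hf.smul_left, smul_right hf, hvv]; ring)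
    rw [e1] at e2
    have e3 : Nat.card {g : Cfsg.SU 3 F 2 // ∀ x, x ∈ Submodule.span F {v} ↔ (g.1 : Matrix (Fin 3) (Fin 3) F) *ᵥ x ∈ Submodule.span F {v}} = Nat.card St := by
      apply Nat.card_congr
      apply Equiv.subtypeEquivRight
      intro A
      rw [hSt]
      constructor
      · intro h
        obtain ⟨a, ha⟩ := Submodule.mem_span_singleton.1 ((h v).1 (Submodule.mem_span_singleton_self v))
        exact ⟨a, ha.symm⟩
      · rintro ⟨a, ha⟩ x
        have hinvA : ∀ y, suM A⁻¹ *ᵥ (suM A *ᵥ y) = y := by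
          intro y; rw [Matrix.mulVec_mulVec, ← suM_mul, inv_mul_cancel, suM_one, Matrix.one_mulVec]
        obtain ⟨b, hb⟩ := (hSt A⁻¹).1 (St.inv_mem ((hSt A).2 ⟨a, ha⟩))
        constructor
        · intro hx
          obtain ⟨k, rfl⟩ := Submodule.mem_span_singleton.1 hx
          show suM A *ᵥ (k • v) ∈ _
          rw [Matrix.mulVec_smul, ha]
          exact Submodule.smul_mem _ _ (Submodule.smul_mem _ _ (Submodule.mem_span_singleton_self v))
        · intro hx
          obtain ⟨k, hk⟩ := Submodule.mem_span_singleton.1 hx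
          have h4 : x = suM A⁻¹ *ᵥ (suM A *ᵥ x) := (hinvA x).symm
          rw [h4]
          have hk' : suM A *ᵥ x = k • v := hk.symm
          rw [hk', Matrix.mulVec_smul, hb]
          exact Submodule.smul_mem _ _ (Submodule.smul_mem _ _ (Submodule.mem_span_singleton_self v))
    rw [e3] at e2
    have e4 : (2 ^ (1 * (2 * 3 - 3 * 1)) * (∏ i : Fin 1, ((2 ^ 2) ^ 1 - (2 ^ 2) ^ (i : ℕ))) * (2 ^ ((3 - 2 * 1) * ((3 - 2 * 1) - 1) / 2) * ∏ i ∈ Finset.range (3 - 2 * 1), aU 2 i)) = 72 := by
      rfl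
    rw [e4] at e2
    omega
  obtain ⟨H, hH⟩ : ∃ H : Subgroup (Cfsg.PSU 3 F 2), H = St.map (QuotientGroup.mk' _) := ⟨_, rfl⟩
  have hcomap : H.comap (QuotientGroup.mk' _) = St := by
    rw [hH, Subgroup.comap_map_eq, QuotientGroup.ker_mk', sup_eq_left]
    exact hcen
  have hmemH : ∀ A : Cfsg.SU 3 F 2, QuotientGroup.mk' (Subgroup.center (Cfsg.SU 3 F 2)) A ∈ H ↔ A ∈ St := by
    intro A
    rw [← hcomap]; rfl
  have hcH : Nat.card H = 8 := by
    have h1 : H.index = St.index := by
      rw [← hcomap, Subgroup.index_comap_of_surjective _ (QuotientGroup.mk'_surjective _)]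
    have h4 := H.card_mul_index
    have h5 := St.card_mul_index
    rw [hcSt, card_SU32 hF] at h5
    rw [h1, card_PSU32 hF] at h4
    have h6 : St.index = 9 := by omega
    rw [h6] at h4
    omega
  -- representatives
  have hrep : ∀ x ∈ H, x = 1 ∨ x = QuotientGroup.mk' _ T ∨ x * x = QuotientGroup.mk' _ T := by
    intro x hx
    obtain ⟨A, rfl⟩ := QuotientGroup.mk'_surjective _ x
    obtain ⟨a, ha⟩ := (hSt A).1 ((hmemH A).1 hx)
    have ha0 : a ≠ 0 := by
      rintro rfl
      have h4 : suM A⁻¹ *ᵥ (suM A *ᵥ v) = v := by rw [Matrix.mulVec_mulVec, ← suM_mul, inv_mul_cancel, suM_one, Matrix.one_mulVec]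
      rw [ha, zero_smul, Matrix.mulVec_zero] at h4
      exact hv0 h4.symm
    obtain ⟨Z, hZ, hZx⟩ := exists_scalar_SU3 hF a⁻¹ (inv_ne_zero ha0)
    have h1 : QuotientGroup.mk' (Subgroup.center (Cfsg.SU 3 F 2)) (Z * A) = QuotientGroup.mk' _ A := by
      rw [map_mul]
      have : QuotientGroup.mk' (Subgroup.center (Cfsg.SU 3 F 2)) Z = 1 := (QuotientGroup.eq_one_iff Z).2 hZ
      rw [this, one_mul]
    rw [← h1]
    rcases hmain (Z * A) (by rw [suM_mul, ← Matrix.mulVec_mulVec, ha, hZx, smul_smul, inv_mul_cancel₀ ha0, one_smul]) with h | h | h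
    · left; rw [h, map_one]
    · right; left; rw [h]
    · right; right; rw [← map_mul, h]
  have hTH : QuotientGroup.mk' _ T ∈ H := (hmemH T).2 ((hSt T).2 ⟨1, by rw [hTv, one_smul]⟩)
  -- the transvection moves every other isotropic line
  have hTmove : ∀ r : Fin 3 → F, hermForm 3 F 2 r r = 0 → (∃ a : F, suM T *ᵥ r = a • r) → r ∈ Submodule.span F {v} := by
    rintro r hr ⟨a, ha⟩
    obtain ⟨x, y, s, rfl⟩ := hexp r
    have hy : y = 0 := by
      rw [hTx] at ha
      simp only [hf.add_left, hf.smul_left, hvv, hv'v, hzv, mul_zero, mul_one, zero_add, add_zero] at ha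
      -- compare with `z` and `v'` components through the form
      by_contra hy0
      have h1 := congrArg (fun u => hermForm 3 F 2 u v) ha
      simp only [hf.add_left, hf.smul_left, hvv, hv'v, hzv] at h1
      have ha1 : a = 1 := by
        have : (a - 1) * y = 0 := by linear_combination -h1
        exact sub_eq_zero.1 ((mul_eq_zero.1 this).resolve_right hy0)
      rw [ha1, one_smul, add_eq_left, smul_eq_zero] at ha
      rcases ha with h | h
      · exact hy0 h
      · exact hv0 h
    subst hy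
    have hs : s = 0 := by
      simp only [hf.add_left, add_right hf, hf.smul_left, smul_right hf, hvv, hzv, hvz, hzz, map_zero, hv'v, hvv', hv'v', hv'z, hzv'] at hr
      have h1 : s ^ 3 = 0 := by rw [← hσ2]; linear_combination hr
      exact pow_eq_zero_iff (by norm_num) |>.1 h1
    subst hs
    rw [zero_smul, zero_smul, add_zero, add_zero]
    exact Submodule.smul_mem _ _ (Submodule.mem_span_singleton_self v)
  apply frob_72 (card_PSU32 hF) H hcH ?_ (QuotientGroup.mk' _ T) hTH ?_ ?_ ?_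
  · -- trivial intersections
    intro g hg
    obtain ⟨B, rfl⟩ := QuotientGroup.mk'_surjective _ g
    have hB : B ∉ St := fun h => hg ((hmemH B).2 h)
    have hBv : suM B *ᵥ v ∉ Submodule.span F {v} := by
      intro h
      obtain ⟨a, ha⟩ := Submodule.mem_span_singleton.1 h
      exact hB ((hSt B).2 ⟨a, ha.symm⟩)
    rw [eq_bot_iff]
    rintro x ⟨hx1, hx2⟩
    rw [Subgroup.mem_bot]
    have hx2' : x ∈ (MulAut.conj (QuotientGroup.mk' (Subgroup.center (Cfsg.SU 3 F 2)) B) • H) := hx2
    rw [Subgroup.mem_pointwise_smul_iff_inv_smul_mem] at hx2'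
    simp only [MulAut.smul_def, MulAut.conj_inv_apply] at hx2'
    have hfix : ∀ C : Cfsg.SU 3 F 2, B⁻¹ * C * B ∈ St → ∃ a : F, suM C *ᵥ (suM B *ᵥ v) = a • (suM B *ᵥ v) := by
      intro C hC
      obtain ⟨a, ha⟩ := (hSt _).1 hC
      refine ⟨a, ?_⟩
      have h1 : C * B = B * (B⁻¹ * C * B) := by group
      rw [Matrix.mulVec_mulVec, ← suM_mul, h1, suM_mul, ← Matrix.mulVec_mulVec, ha, Matrix.mulVec_smul]
    have hTB : ¬ (B⁻¹ * T * B ∈ St) := by
      intro h
      exact hBv (hTmove _ (by rw [su_herm, hvv]) (hfix T h))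
    have hTB' : ¬ ((QuotientGroup.mk' (Subgroup.center (Cfsg.SU 3 F 2)) B)⁻¹ * QuotientGroup.mk' _ T * QuotientGroup.mk' _ B ∈ H) := by
      rw [← map_inv, ← map_mul, ← map_mul, hmemH]; exact hTB
    rcases hrep x hx1 with h | h | h
    · exact h
    · exact absurd (h ▸ hx2') hTB'
    · exfalso
      apply hTB'
      have h1 := H.mul_mem hx2' hx2'
      rw [← h]
      have h4 : (QuotientGroup.mk' (Subgroup.center (Cfsg.SU 3 F 2)) B)⁻¹ * (x * x) * QuotientGroup.mk' _ B =
          (QuotientGroup.mk' (Subgroup.center (Cfsg.SU 3 F 2)) B)⁻¹ * x * QuotientGroup.mk' _ B * ((QuotientGroup.mk' (Subgroup.center (Cfsg.SU 3 F 2)) B)⁻¹ * x * QuotientGroup.mk' _ B) := by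
        group
      rw [h4]; exact h1
  · intro h
    have h1 : T ∈ Subgroup.center (Cfsg.SU 3 F 2) := (QuotientGroup.eq_one_iff T).1 h
    obtain ⟨μ, hμ⟩ := center_SU_scalar hF2 (by norm_num) h1
    have h4 : suM T = Matrix.scalar (Fin 3) μ := hμ
    have h5 := hTmove v' hv'v' ⟨μ, by rw [h4, Matrix.scalar_apply, ← Matrix.smul_one_eq_diagonal, Matrix.smul_mulVec, Matrix.one_mulVec]⟩
    obtain ⟨k, hk⟩ := Submodule.mem_span_singleton.1 h5
    have h6 : hermForm 3 F 2 v' v = 0 := by rw [← hk, hf.smul_left, hvv, mul_zero]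
    rw [hv'v] at h6
    exact one_ne_zero h6
  · rw [← map_mul, hTT, map_one]
  · intro x hx h1 h4
    rcases hrep x hx with h | h | h
    · exact absurd h h1
    · exact absurd h h4
    · exact h

end

end Cfsg.Agent.H22
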