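import Mathlib

set_option autoImplicit false

namespace Cfsg.Agent.H22Up

open Equiv

/-- number of fixed points -/
noncomputable def nfix {α : Type*} [Fintype α] (σ : Perm α) : ℕ :=
  Nat.card {x // σ x = x}

theorem nfix_add {α : Type*} [Fintype α] [DecidableEq α] {r : ℕ} (hr : r.Prime)
    (σ : Perm α) (hσ : σ ^ r = 1) :
    nfix σ + r * Multiset.card σ.cycleType = Fintype.card α := by
  haveI : Fact r.Prime := ⟨hr⟩
  have h1 := Equiv.Perm.card_fixedPoints σ
  have h2 := Equiv.Perm.cycleType_of_pow_prime_eq_one hσ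
  have h3 := Equiv.Perm.sum_cycleType_le σ
  have h4 : σ.cycleType.sum = Multiset.card σ.cycleType * r := by
    rw [h2, Multiset.sum_replicate, smul_eq_mul, Multiset.card_replicate]
  have h5 : nfix σ = Fintype.card (Function.fixedPoints σ) := by
    unfold nfix
    rw [Nat.card_eq_fintype_card]
    exact Fintype.card_congr (Equiv.subtypeEquivRight (fun x => Iff.rfl))
  rw [h5, h1, h4]
  rw [h4] at h3
  rw [mul_comm r]
  omega

theorem nfix_eq_iff_cycleType {α : Type*} [Fintype α] [DecidableEq α] {r : ℕ} (hr : r.Prime)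
    (σ τ : Perm α) (hσ : σ ^ r = 1) (hτ : τ ^ r = 1) (h : nfix σ = nfix τ) :
    σ.cycleType = τ.cycleType := by
  haveI : Fact r.Prime := ⟨hr⟩
  have h1 := nfix_add hr σ hσ
  have h2 := nfix_add hr τ hτ
  have h3 : Multiset.card σ.cycleType = Multiset.card τ.cycleType := by
    have : r * Multiset.card σ.cycleType = r * Multiset.card τ.cycleType := by omega
    exact Nat.eq_of_mul_eq_mul_left hr.pos this
  rw [Equiv.Perm.cycleType_of_pow_prime_eq_one hσ, Equiv.Perm.cycleType_of_pow_prime_eq_one hτ, h3]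

theorem exists_equiv {α β : Type*} [Fintype α] [Fintype β] {r : ℕ} (hr : r.Prime)
    (σ : Perm α) (τ : Perm β) (hσ : σ ^ r = 1) (hτ : τ ^ r = 1)
    (hc : Fintype.card α = Fintype.card β) (h : nfix σ = nfix τ) :
    ∃ e : α ≃ β, ∀ x, e (σ x) = τ (e x) := by
  classical
  obtain ⟨e0⟩ := Fintype.card_eq.mp hc
  set σ' : Perm β := (e0.symm.trans σ).trans e0 with hσ'
  have hpow : ∀ n : ℕ, ∀ x, (σ' ^ n) x = e0 ((σ ^ n) (e0.symm x)) := by
    intro n
    induction n with
    | zero => intro x; simp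
    | succ n ih =>
      intro x
      rw [pow_succ', Perm.mul_apply, ih, pow_succ', Perm.mul_apply]
      simp [hσ']
  have hσ'1 : σ' ^ r = 1 := by
    ext x
    rw [hpow, hσ]
    simp
  have hn : nfix σ' = nfix σ := by
    unfold nfix
    refine Nat.card_congr (Equiv.subtypeEquiv e0.symm (fun x => ?_))
    simp only [hσ', Equiv.trans_apply]
    constructor
    · intro hx
      have := congrArg e0.symm hx
      simpa using this
    · intro hx
      rw [hx]; simp
  have hct := nfix_eq_iff_cycleType hr σ' τ hσ'1 hτ (hn.trans h)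
  obtain ⟨c, hc'⟩ := (isConj_iff.mp (Equiv.Perm.isConj_iff_cycleType_eq.mpr hct))
  refine ⟨e0.trans c, fun x => ?_⟩
  have h1 : c * σ' = τ * c := by rw [← hc']; group
  have h2 := congrArg (fun g : Perm β => g (e0 x)) h1
  simp only [Perm.mul_apply] at h2
  simp only [Equiv.trans_apply]
  rw [← h2]
  simp [hσ']

theorem exists_perm {r : ℕ} (hr : r.Prime) (n m c : ℕ) (h : m + r * c = n) :
    ∃ σ : Perm (Fin n), σ ^ r = 1 ∧ nfix σ = m := by
  haveI : Fact r.Prime := ⟨hr⟩
  obtain ⟨σ, hσ⟩ := (Equiv.Perm.exists_with_cycleType_iff (Fin n)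
    (m := Multiset.replicate c r)).mpr ⟨by
      rw [Multiset.sum_replicate, smul_eq_mul, Fintype.card_fin, mul_comm]; omega,
      fun a ha => by rw [Multiset.eq_of_mem_replicate ha]; exact hr.two_le⟩
  have h1 : σ ^ r = 1 := by
    rw [Equiv.Perm.pow_prime_eq_one_iff, hσ]
    intro c hc
    exact Multiset.eq_of_mem_replicate hc
  refine ⟨σ, h1, ?_⟩
  have h2 := nfix_add hr σ h1
  rw [hσ, Multiset.card_replicate, Fintype.card_fin] at h2
  omega

theorem nfix_mod {α : Type*} [Fintype α] {r : ℕ} (hr : r.Prime)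
    (σ : Perm α) (hσ : σ ^ r = 1) : Fintype.card α % r ≤ nfix σ ∧ nfix σ ≤ Fintype.card α := by
  classical
  have h := nfix_add hr σ hσ
  constructor
  · rw [← h, Nat.add_mul_mod_self_left]
    exact Nat.mod_le _ _
  · omega

end Cfsg.Agent.H22Up
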