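import Cfsg.Agent.LibH22Up1

set_option autoImplicit false

namespace Cfsg.Agent.H22Up

open Equiv

/-- distributing `s` among `m` boxes of capacity `A`. -/
theorem exists_dist {ι : Type*} [DecidableEq ι] (S : Finset ι) (A s : ℕ) (h : s ≤ S.card * A) :
    ∃ i : ι → ℕ, (∀ x, i x ≤ A) ∧ ∑ x ∈ S, i x = s := by
  induction S using Finset.induction_on generalizing s with
  | empty =>
    refine ⟨fun _ => 0, fun x => Nat.zero_le _, ?_⟩
    simp at h ⊢
    omega
  | insert a S ha ih =>
    rw [Finset.card_insert_of_notMem ha] at h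
    have h' : s ≤ S.card * A + A := by linarith
    obtain ⟨i, hi, hs⟩ := ih (s - min s A) (by
      rcases le_total s A with h1 | h1
      · rw [min_eq_left h1]; simp
      · rw [min_eq_right h1]; omega)
    refine ⟨fun x => if x = a then min s A else i x, fun x => ?_, ?_⟩
    · dsimp only
      split_ifs
      · exact min_le_right _ _
      · exact hi x
    · rw [Finset.sum_insert ha]
      rw [if_pos rfl]
      have : ∑ x ∈ S, (if x = a then min s A else i x) = ∑ x ∈ S, i x := by
        refine Finset.sum_congr rfl (fun x hx => ?_)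
        rw [if_neg]
        rintro rfl
        exact ha hx
      rw [this, hs]
      have : min s A ≤ s := min_le_left _ _
      omega

/-- the model permutation -/
theorem model {a b r : ℕ} (hr : r.Prime) (m s : ℕ) (c : ℕ) (hm : m + r * c = b)
    (hs : s ≤ m * (a / r)) :
    ∃ (π : Perm (Fin b)) (τ : Perm (Fin b × Fin a)), τ ^ r = 1 ∧
      nfix τ = m * (a % r) + r * s ∧ ∀ x, (τ x).1 = π x.1 := by
  classical
  obtain ⟨π, hπ, hπm⟩ := exists_perm hr b m c hm
  let S : Finset (Fin b) := Finset.univ.filter (fun x => π x = x)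
  have hS : S.card = m := by
    rw [← hπm]
    unfold nfix
    rw [Nat.card_eq_fintype_card, Fintype.card_subtype]
  obtain ⟨i, hiA, hi⟩ := exists_dist S (a / r) s (by rw [hS]; exact hs)
  have hex : ∀ β : Fin b, ∃ t : Perm (Fin a), t ^ r = 1 ∧ nfix t = a % r + r * i β := by
    intro β
    refine exists_perm hr a (a % r + r * i β) (a / r - i β) ?_
    have h1 := Nat.mod_add_div a r
    have h2 := hiA β
    have h3 : r * i β + r * (a / r - i β) = r * (a / r) := by
      rw [← Nat.mul_add]; congr 1; omega
    omega
  choose t ht htn using hex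
  let t' : Fin b → Perm (Fin a) := fun β => if π β = β then t β else 1
  have ht' : ∀ β, (t' β) ^ r = 1 := by
    intro β
    simp only [t']
    split_ifs
    · exact ht β
    · simp
  have htπ : ∀ β, t' (π β) = t' β := by
    intro β
    simp only [t']
    by_cases h : π β = β
    · rw [h, h]
    · rw [if_neg, if_neg h]
      intro h'
      exact h (π.injective h')
  let τ : Perm (Fin b × Fin a) := Equiv.prodShear π t'
  have hτ : ∀ x, τ x = (π x.1, t' x.1 x.2) := fun x => rfl
  have hpow : ∀ n : ℕ, ∀ x, (τ ^ n) x = ((π ^ n) x.1, ((t' x.1) ^ n) x.2) := by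
    intro n
    induction n with
    | zero => intro x; simp
    | succ n ih =>
      intro x
      rw [pow_succ, Perm.mul_apply, hτ, ih]
      simp only
      rw [htπ, pow_succ, pow_succ, Perm.mul_apply, Perm.mul_apply]
  refine ⟨π, τ, ?_, ?_, fun x => rfl⟩
  · ext x
    · rw [hpow, hπ]; simp
    · rw [hpow, ht']; simp
  · unfold nfix
    have e : {x : Fin b × Fin a // τ x = x} ≃ Σ β : {β : Fin b // π β = β}, {y : Fin a // t β.1 y = y} :=
      { toFun := fun x => ⟨⟨x.1.1, by
            have := congrArg Prod.fst x.2
            exact this⟩, ⟨x.1.2, by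
            have h1 := congrArg Prod.fst x.2
            have h2 := congrArg Prod.snd x.2
            have h3 : π x.1.1 = x.1.1 := h1
            have h4 : t' x.1.1 x.1.2 = x.1.2 := h2
            simp only [t'] at h4
            rw [if_pos h3] at h4
            exact h4⟩⟩
        invFun := fun y => ⟨(y.1.1, y.2.1), by
            rw [hτ]
            simp only [t']
            rw [if_pos y.1.2, y.1.2, y.2.2]⟩
        left_inv := fun x => rfl
        right_inv := fun y => rfl }
    rw [Nat.card_congr e, Nat.card_eq_fintype_card, Fintype.card_sigma]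
    have h1 : ∀ β : {β : Fin b // π β = β}, Fintype.card {y : Fin a // t β.1 y = y} = a % r + r * i β.1 := by
      intro β
      have := htn β.1
      unfold nfix at this
      rw [Nat.card_eq_fintype_card] at this
      exact this
    rw [Finset.sum_congr rfl (fun β _ => h1 β)]
    rw [Finset.sum_add_distrib, Finset.sum_const, ← Finset.mul_sum]
    have h2 : (Finset.univ : Finset {β : Fin b // π β = β}).card = m := by
      rw [Finset.card_univ, Fintype.card_subtype]; exact hS
    have h3 : ∑ β : {β : Fin b // π β = β}, i β.1 = s := by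
      rw [← hi]
      symm
      exact Finset.sum_subtype S (fun x => by simp [S]) i
    rw [h2, h3, smul_eq_mul]

/-- (→) -/
theorem fwd {n a b r : ℕ} (hr : r.Prime) (σ : Perm (Fin n)) (hσ : σ ^ r = 1)
    (f : Fin n → Fin b) (hf : ∀ j : Fin b, Nat.card {x : Fin n // f x = j} = a) (ha : 0 < a)
    (π : Perm (Fin b)) (hπ : ∀ x, f (σ x) = π (f x)) :
    ∃ m c, m + r * c = b ∧ m * (a % r) ≤ nfix σ ∧ nfix σ ≤ m * a := by
  classical
  have hsurj : Function.Surjective f := by
    intro j
    have h1 := hf j
    by_contra hcon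
    push Not at hcon
    haveI : IsEmpty {x : Fin n // f x = j} := ⟨fun x => hcon x.1 x.2⟩
    rw [Nat.card_of_isEmpty] at h1
    omega
  have hpow : ∀ k : ℕ, ∀ x, f ((σ ^ k) x) = (π ^ k) (f x) := by
    intro k
    induction k with
    | zero => intro x; simp
    | succ k ih => intro x; rw [pow_succ, Perm.mul_apply, ih, hπ, pow_succ, Perm.mul_apply]
  have hπr : π ^ r = 1 := by
    ext j
    obtain ⟨x, rfl⟩ := hsurj j
    rw [← hpow, hσ]; simp
  refine ⟨nfix π, Multiset.card π.cycleType, ?_, ?_⟩
  · have := nfix_add hr π hπr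
    rw [Fintype.card_fin] at this
    exact this
  · -- fixed points
    have hinv : ∀ j : {j : Fin b // π j = j}, ∀ x, (f x = j.1) ↔ (f (σ x) = j.1) := by
      intro j x
      rw [hπ]
      constructor
      · intro h; rw [h, j.2]
      · intro h
        apply π.injective
        rw [h, j.2]
    let τ : ∀ j : {j : Fin b // π j = j}, Perm {x : Fin n // f x = j.1} :=
      fun j => Perm.subtypePerm σ (fun x => (hinv j x).symm)
    have hτr : ∀ j, (τ j) ^ r = 1 := by
      intro j
      ext x
      simp only [τ]
      rw [Perm.subtypePerm_pow]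
      simp [hσ]
    have hb : ∀ j, a % r ≤ nfix (τ j) ∧ nfix (τ j) ≤ a := by
      intro j
      have h1 := nfix_mod hr (τ j) (hτr j)
      have h2 : Fintype.card {x : Fin n // f x = j.1} = a := by
        rw [← Nat.card_eq_fintype_card]; exact hf j.1
      rw [h2] at h1
      exact h1
    have e : {x : Fin n // σ x = x} ≃ Σ j : {j : Fin b // π j = j}, {y : {x : Fin n // f x = j.1} // τ j y = y} :=
      { toFun := fun x => ⟨⟨f x.1, by rw [← hπ, x.2]⟩, ⟨⟨x.1, rfl⟩, Subtype.ext x.2⟩⟩
        invFun := fun y => ⟨y.2.1.1, congrArg Subtype.val y.2.2⟩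
        left_inv := fun x => rfl
        right_inv := by
          rintro ⟨⟨j, hj⟩, ⟨⟨x, hx⟩, hy⟩⟩
          simp only at hx
          subst hx
          rfl }
    have hsum : nfix σ = ∑ j : {j : Fin b // π j = j}, nfix (τ j) := by
      unfold nfix
      rw [Nat.card_congr e, Nat.card_eq_fintype_card, Fintype.card_sigma]
      refine Finset.sum_congr rfl (fun j _ => ?_)
      rw [Nat.card_eq_fintype_card]
    have hcard : (Finset.univ : Finset {j : Fin b // π j = j}).card = nfix π := by
      rw [Finset.card_univ]
      unfold nfix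
      rw [Nat.card_eq_fintype_card]
    constructor
    · rw [hsum]
      have := Finset.card_nsmul_le_sum (Finset.univ : Finset {j : Fin b // π j = j})
        (fun j => nfix (τ j)) (a % r) (fun j _ => (hb j).1)
      rw [hcard, smul_eq_mul] at this
      exact this
    · rw [hsum]
      have := Finset.sum_le_card_nsmul (Finset.univ : Finset {j : Fin b // π j = j})
        (fun j => nfix (τ j)) a (fun j _ => (hb j).2)
      rw [hcard, smul_eq_mul] at this
      exact this

/-- (←) -/
theorem bwd {a b r : ℕ} (hr : r.Prime) (σ : Perm (Fin (a * b))) (hσ : σ ^ r = 1)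
    (m c : ℕ) (hm : m + r * c = b) (h1 : m * (a % r) ≤ nfix σ) (h2 : nfix σ ≤ m * a) :
    ∃ f : Fin (a * b) → Fin b, (∀ j : Fin b, Nat.card {x : Fin (a * b) // f x = j} = a) ∧
      ∃ π : Equiv.Perm (Fin b), ∀ x : Fin (a * b), f (σ x) = π (f x) := by
  classical
  have h3 := nfix_add hr σ hσ
  rw [Fintype.card_fin] at h3
  -- nfix σ = m * (a % r) + r * s
  have h4 : ∃ s, nfix σ = m * (a % r) + r * s := by
    have h5 : r ∣ nfix σ - m * (a % r) := by
      refine (Nat.modEq_iff_dvd' h1).mp ?_
      have e1 : m * (a % r) ≡ m * a [MOD r] := (Nat.mod_modEq a r).mul_left m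
      have e2 : m * a ≡ b * a [MOD r] := by
        refine Nat.ModEq.mul_right a ?_
        rw [← hm]
        exact (Nat.ModEq.symm (by
          show (m + r * c) % r = m % r
          rw [Nat.add_mul_mod_self_left]))
      have e3 : nfix σ ≡ b * a [MOD r] := by
        have e4 : (nfix σ + r * Multiset.card σ.cycleType) % r = nfix σ % r := by
          rw [Nat.add_mul_mod_self_left]
        have e5 : (a * b) % r = nfix σ % r := by
          have h3' : (nfix σ + r * Multiset.card σ.cycleType) % r = (a * b) % r :=
            congrArg (fun t => t % r) h3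
          exact h3'.symm.trans e4
        rw [mul_comm b a]
        exact e5.symm
      exact (e1.trans e2).trans e3.symm
    obtain ⟨s, hs⟩ := h5
    exact ⟨s, by omega⟩
  obtain ⟨s, hs⟩ := h4
  have hs2 : s ≤ m * (a / r) := by
    have e1 : m * a = m * (a % r) + r * (m * (a / r)) := by
      conv_lhs => rw [← Nat.mod_add_div a r]
      ring
    rw [hs, e1] at h2
    have e2 : r * s ≤ r * (m * (a / r)) := by omega
    exact Nat.le_of_mul_le_mul_left e2 hr.pos
  obtain ⟨π, τ, hτ, hτn, hτπ⟩ := model (a := a) hr m s c hm hs2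
  obtain ⟨e, he⟩ := exists_equiv hr σ τ hσ hτ (by simp [mul_comm]) (hs.trans hτn.symm)
  refine ⟨fun x => (e x).1, ?_, π, ?_⟩
  · intro j
    have e1 : {x : Fin (a * b) // (e x).1 = j} ≃ Fin a :=
      { toFun := fun x => (e x.1).2
        invFun := fun y => ⟨e.symm (j, y), by simp⟩
        left_inv := by
          rintro ⟨x, hx⟩
          apply Subtype.ext
          simp only
          rw [← hx]
          simp
        right_inv := fun y => by simp }
    rw [Nat.card_congr e1, Nat.card_eq_fintype_card, Fintype.card_fin]
  · intro x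
    simp only
    rw [he, hτπ]

end Cfsg.Agent.H22Up
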