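import Cfsg.Agent.LibH22Up2

set_option autoImplicit false

namespace Cfsg.Agent.H22Up

open Equiv

theorem reduce {a b r : ℕ} (ha : 2 ≤ a) (hr : r.Prime) :
    (∀ σ : Equiv.Perm (Fin (a * b)), orderOf σ = r →
        ∃ f : Fin (a * b) → Fin b, (∀ j : Fin b, Nat.card {x : Fin (a * b) // f x = j} = a) ∧
          ∃ π : Equiv.Perm (Fin b), ∀ x : Fin (a * b), f (σ x) = π (f x)) ↔
    (∀ h, 1 ≤ h → r * h ≤ a * b → ∃ j, r * j ≤ b ∧ a * j ≤ h ∧ h ≤ b * (a / r) + j * (a % r)) := by
  have hkey : ∀ h m j, r * h ≤ a * b → m + r * j = b →
      ((m * (a % r) ≤ a * b - r * h ∧ a * b - r * h ≤ m * a) ↔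
        (a * j ≤ h ∧ h ≤ b * (a / r) + j * (a % r))) := by
    intro h m j hh hm
    have h1 := Nat.mod_add_div a r
    have hrp := hr.pos
    set A := a / r
    set l := a % r
    obtain ⟨w, hw⟩ := Nat.exists_eq_add_of_le hh
    have hw' : a * b - r * h = w := by omega
    rw [hw']
    constructor
    · rintro ⟨e1, e2⟩
      constructor
      · have : r * (a * j) ≤ r * h := by
          have e3 : a * b = m * a + r * (a * j) := by rw [← hm]; ring
          omega
        exact Nat.le_of_mul_le_mul_left this hrp
      · have : r * h ≤ r * (b * A + j * l) := by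
          have e3 : a * b = m * l + r * (b * A + j * l) := by
            rw [← hm, ← h1]; ring
          omega
        exact Nat.le_of_mul_le_mul_left this hrp
    · rintro ⟨e1, e2⟩
      constructor
      · have e3 : a * b = m * l + r * (b * A + j * l) := by
          rw [← hm, ← h1]; ring
        have e4 := Nat.mul_le_mul_left r e2
        omega
      · have e3 : a * b = m * a + r * (a * j) := by rw [← hm]; ring
        have e4 := Nat.mul_le_mul_left r e1
        omega
  constructor
  · intro H h h1 hh
    obtain ⟨σ, hσ, hσn⟩ := exists_perm hr (a * b) (a * b - r * h) h (by omega)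
    have hne : σ ≠ 1 := by
      rintro rfl
      have h3 := nfix_add hr (1 : Perm (Fin (a * b))) (by simp)
      rw [hσn, Fintype.card_fin, Equiv.Perm.cycleType_one] at h3
      simp only [Multiset.card_zero, mul_zero, add_zero] at h3
      have : 0 < r * h := Nat.mul_pos hr.pos h1
      omega
    have ho : orderOf σ = r := by
      rcases (Nat.dvd_prime hr).mp (orderOf_dvd_of_pow_eq_one hσ) with h | h
      · exact absurd (orderOf_eq_one_iff.mp h) hne
      · exact h
    obtain ⟨f, hf, π, hπ⟩ := H σ ho
    obtain ⟨m, j, hm, e1, e2⟩ := fwd hr σ hσ f hf (by omega) π hπ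
    rw [hσn] at e1 e2
    obtain ⟨e3, e4⟩ := (hkey h m j hh hm).mp ⟨e1, e2⟩
    exact ⟨j, by omega, e3, e4⟩
  · intro H σ ho
    have hσ : σ ^ r = 1 := by rw [← ho]; exact pow_orderOf_eq_one σ
    have h3 := nfix_add hr σ hσ
    rw [Fintype.card_fin] at h3
    have h4 : 1 ≤ Multiset.card σ.cycleType := by
      rw [Nat.one_le_iff_ne_zero]
      intro h0
      rw [Multiset.card_eq_zero, Equiv.Perm.cycleType_eq_zero] at h0
      rw [h0, orderOf_one] at ho
      exact hr.one_lt.ne ho
    obtain ⟨j, e1, e2, e3⟩ := H _ h4 (by omega)
    obtain ⟨m, hm⟩ := Nat.exists_eq_add_of_le e1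
    have e4 := (hkey (Multiset.card σ.cycleType) m j (by omega) (by omega)).mpr ⟨e2, e3⟩
    have e5 : nfix σ = a * b - r * Multiset.card σ.cycleType := by omega
    rw [← e5] at e4
    exact bwd hr σ hσ m j (by omega) e4.1 e4.2

theorem numeric {a b r : ℕ} (ha : 2 ≤ a) (hb : 2 ≤ b) (hr : r.Prime) (hrab : r ≤ a * b) :
    (∀ h, 1 ≤ h → r * h ≤ a * b → ∃ j, r * j ≤ b ∧ a * j ≤ h ∧ h ≤ b * (a / r) + j * (a % r)) ↔
    (r ≤ a ∧ (a % r = 0 ∨ (b % r = 0 ∧ a % r = 1) ∨
        (a % r ≠ 0 ∧ b % r ≠ 0 ∧ (b % r) * (a % r) < r ∧ (b < r ∨ (b % r + r) * (a % r) ≤ (b % r) * a + r)))) := by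
  have hrp := hr.pos
  have ha1 := Nat.mod_add_div a r
  have hb1 := Nat.mod_add_div b r
  have hl := Nat.mod_lt a hrp
  have hk := Nat.mod_lt b hrp
  have hAdef : 1 ≤ a / r ↔ r ≤ a := by
    rw [Nat.one_le_div_iff hrp]
  have hBdef : 1 ≤ b / r ↔ r ≤ b := by
    rw [Nat.one_le_div_iff hrp]
  set A := a / r with hA
  set l := a % r with hldef
  set B := b / r with hB
  set k := b % r with hkdef
  have hjB : ∀ j, r * j ≤ b ↔ j ≤ B := by
    intro j
    rw [hB, Nat.le_div_iff_mul_le hrp, mul_comm]
  clear_value A l B k
  clear hA hB hldef hkdef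
  have hab : a * b = r * (b * A + B * l) + k * l := by
    conv_lhs => rw [← ha1]
    conv_rhs => rw [show b * A = (k + r * B) * A by rw [hb1]]
    conv_lhs => rw [← hb1]
    ring
  constructor
  · intro H
    have hA1 : 1 ≤ A := by
      by_contra h0
      have h0' : A = 0 := by omega
      obtain ⟨j, e1, e2, e3⟩ := H 1 le_rfl (by omega)
      rw [h0'] at e3
      have hj : j ≠ 0 := by
        rintro rfl
        simp at e3
      have : a * 1 ≤ a * j := Nat.mul_le_mul_left a (by omega)
      omega
    refine ⟨hAdef.mp hA1, ?_⟩
    by_cases hl0 : l = 0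
    · exact Or.inl hl0
    right
    have hcond : 1 ≤ B → l ≤ k * A + 1 := by
      intro hB1
      obtain ⟨j, e1, e2, e3⟩ := H (b * A + (B - 1) * l + 1) (by omega) (by
        rw [hab]
        have h1 : b * A + (B - 1) * l + 1 ≤ b * A + B * l := by
          have : (B - 1) * l + l = B * l := by
            rw [← Nat.succ_mul]; congr 1; omega
          omega
        have h2 := Nat.mul_le_mul_left r h1
        omega)
      have hj1 : B - 1 < j := by
        have : (B - 1) * l < j * l := by omega
        exact Nat.lt_of_mul_lt_mul_right this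
      have hj2 : j = B := by
        have := (hjB j).mp e1
        omega
      rw [hj2] at e2
      have h3 : a * B = r * B * A + B * l := by
        conv_lhs => rw [← ha1]
        ring
      have h4 : b * A = k * A + r * B * A := by
        conv_lhs => rw [← hb1]
        ring
      have h5 : (B - 1) * l + l = B * l := by
        rw [← Nat.succ_mul]; congr 1; omega
      omega
    have hkl : k * l < r := by
      obtain ⟨j, e1, e2, e3⟩ := H (a * b / r) (by
        rw [Nat.one_le_div_iff hrp]; exact hrab) (Nat.mul_div_le _ _)
      have h1 : a * b / r = b * A + B * l + k * l / r := by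
        rw [hab, Nat.mul_add_div hrp]
      have h2 : j * l ≤ B * l := Nat.mul_le_mul_right l ((hjB j).mp e1)
      have h3 : k * l / r = 0 := by
        generalize k * l / r = w at h1
        omega
      rcases Nat.div_eq_zero_iff.mp h3 with h | h
      · omega
      · exact h
    by_cases hk0 : k = 0
    · left
      refine ⟨hk0, ?_⟩
      have hB1 : 1 ≤ B := by
        by_contra h0
        have : B = 0 := by omega
        rw [this, hk0] at hb1
        simp at hb1
        omega
      have := hcond hB1
      rw [hk0] at this
      omega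
    · right
      refine ⟨hl0, hk0, hkl, ?_⟩
      by_cases hbr : b < r
      · exact Or.inl hbr
      right
      have h1 := hcond (hBdef.mpr (by omega))
      have h2 := Nat.mul_le_mul_left r h1
      calc (k + r) * l = k * l + r * l := by ring
        _ ≤ k * l + r * (k * A + 1) := by omega
        _ = k * (l + r * A) + r := by ring
        _ = k * a + r := by rw [ha1]
  · rintro ⟨hra, H⟩ h h1 hh
    -- h ≤ b A + B l
    have hcase : (∃ j, j ≤ B ∧ h ≤ b * A + j * l ∧ (j = 0 ∨ (b * A + (j - 1) * l + 1 ≤ h))) ↔
        h ≤ b * A + B * l := by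
      constructor
      · rintro ⟨j, hj, e1, -⟩
        have := Nat.mul_le_mul_right l hj
        omega
      · intro hle
        classical
        have hex : ∃ j, h ≤ b * A + j * l := ⟨B, hle⟩
        refine ⟨Nat.find hex, Nat.find_min' hex hle, Nat.find_spec hex, ?_⟩
        by_cases h0 : Nat.find hex = 0
        · exact Or.inl h0
        right
        have := Nat.find_min hex (m := Nat.find hex - 1) (by omega)
        omega
    rcases H with hl0 | ⟨hk0, hl1⟩ | ⟨hl0, hk0, hkl, hcond⟩
    · refine ⟨0, by omega, by omega, ?_⟩
      rw [hab, hl0] at hh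
      simp only [mul_zero, add_zero] at hh
      have := Nat.le_of_mul_le_mul_left hh hrp
      omega
    · have hle : h ≤ b * A + B * l := by
        rw [hab, hk0] at hh
        simp only [zero_mul, add_zero] at hh
        exact Nat.le_of_mul_le_mul_left hh hrp
      obtain ⟨j, hj, e1, e2⟩ := hcase.mpr hle
      refine ⟨j, (hjB j).mpr hj, ?_, e1⟩
      rcases e2 with e2 | e2
      · rw [e2]; omega
      · by_cases hj0 : j = 0
        · rw [hj0]; omega
        -- a j ≤ bA + (j-1) + 1
        have h3 : a * j = r * j * A + j * l := by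
          conv_lhs => rw [← ha1]
          ring
        have h4 : b * A = k * A + r * B * A := by
          conv_lhs => rw [← hb1]
          ring
        have h5 : (j - 1) * l + l = j * l := by
          rw [← Nat.succ_mul]; congr 1; omega
        have h6 : r * j * A ≤ r * B * A := Nat.mul_le_mul_right A (Nat.mul_le_mul_left r hj)
        omega
    · have hle : h ≤ b * A + B * l := by
        rw [hab] at hh
        by_contra hcon
        have h3 : b * A + B * l + 1 ≤ h := by omega
        have h4 := Nat.mul_le_mul_left r h3
        rw [Nat.mul_add] at h4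
        omega
      obtain ⟨j, hj, e1, e2⟩ := hcase.mpr hle
      refine ⟨j, (hjB j).mpr hj, ?_, e1⟩
      rcases e2 with e2 | e2
      · rw [e2]; omega
      · by_cases hj0 : j = 0
        · rw [hj0]; omega
        have h3 : a * j = r * j * A + j * l := by
          conv_lhs => rw [← ha1]
          ring
        have h4 : b * A = k * A + r * B * A := by
          conv_lhs => rw [← hb1]
          ring
        have h5 : (j - 1) * l + l = j * l := by
          rw [← Nat.succ_mul]; congr 1; omega
        have h6 : r * j * A ≤ r * B * A := Nat.mul_le_mul_right A (Nat.mul_le_mul_left r hj)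
        have h7 : r ≤ b := hBdef.mp (by omega)
        have h8 : (k + r) * l ≤ k * a + r := by
          rcases hcond with h | h
          · omega
          · exact h
        have h9 : l ≤ k * A + 1 := by
          have : r * l ≤ r * (k * A + 1) := by
            have e5 : (k + r) * l = k * l + r * l := by ring
            have e6 : k * a + r = k * l + r * (k * A + 1) := by
              conv_lhs => rw [← ha1]
              ring
            omega
          exact Nat.le_of_mul_le_mul_left this hrp
        omega

end Cfsg.Agent.H22Up
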