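import Mathlib

/-! Derived lengths of `p`-subgroups (seat helper22). -/

namespace CfsgLib.H22Wr

open Subgroup
open scoped commutatorElement

/-- the derived subgroup of a subgroup -/
def dd {G : Type*} [Group G] (M : Subgroup G) : Subgroup G := ⁅M, M⁆

section
variable {G G' : Type*} [Group G] [Group G']

theorem dd_mono {M M' : Subgroup G} (h : M ≤ M') : dd M ≤ dd M' := Subgroup.commutator_mono h h

theorem dd_le (M : Subgroup G) : dd M ≤ M := by
  unfold dd
  rw [Subgroup.commutator_le]
  intro a ha b hb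
  rw [commutatorElement_def]
  exact M.mul_mem (M.mul_mem (M.mul_mem ha hb) (M.inv_mem ha)) (M.inv_mem hb)

theorem ddn_mono {M M' : Subgroup G} (h : M ≤ M') (d : ℕ) : dd^[d] M ≤ dd^[d] M' := by
  induction d with
  | zero => exact h
  | succ d ih => rw [Function.iterate_succ_apply', Function.iterate_succ_apply']; exact dd_mono ih

theorem ddn_le (M : Subgroup G) (d : ℕ) : dd^[d] M ≤ M := by
  induction d with
  | zero => exact le_rfl
  | succ d ih => rw [Function.iterate_succ_apply']; exact (dd_le _).trans ih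

theorem ddn_map (f : G →* G') (M : Subgroup G) (d : ℕ) : (dd^[d] M).map f = dd^[d] (M.map f) := by
  induction d with
  | zero => rfl
  | succ d ih =>
    rw [Function.iterate_succ_apply', Function.iterate_succ_apply', ← ih]
    exact Subgroup.map_commutator _ _ _

theorem derivedSeries_eq (d : ℕ) : derivedSeries G d = dd^[d] (⊤ : Subgroup G) := by
  induction d with
  | zero => rfl
  | succ d ih => rw [derivedSeries_succ, Function.iterate_succ_apply', ih]; rfl

theorem derivedSeries_map (M : Subgroup G) (d : ℕ) : (derivedSeries M d).map M.subtype = dd^[d] M := by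
  rw [derivedSeries_eq, ddn_map, ← MonoidHom.range_eq_map, Subgroup.range_subtype]

theorem derivedSeries_eq_bot_iff (M : Subgroup G) (d : ℕ) : derivedSeries M d = ⊥ ↔ dd^[d] M = ⊥ := by
  rw [← derivedSeries_map, Subgroup.map_eq_bot_iff_of_injective _ M.subtype_injective]

/-- subgroups of index at most `p ^ d` in a `p`-group contain the `d`-th derived subgroup -/
theorem ddn_le_of_relIndex [Finite G] {p : ℕ} [hp : Fact p.Prime] (d : ℕ) : ∀ (M H : Subgroup G), IsPGroup p M → H ≤ M → H.relIndex M ≤ p ^ d →
    dd^[d] M ≤ H := by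
  induction d with
  | zero =>
    intro M H _ hHM hi
    rw [pow_zero] at hi
    have h1 : H.relIndex M = 1 := by
      have : 0 < H.relIndex M := Nat.pos_of_dvd_of_pos (H.relIndex_dvd_card M) Nat.card_pos
      omega
    exact Subgroup.relIndex_eq_one.mp h1
  | succ d ih =>
    intro M H hM hHM hi
    by_cases hH : H = M
    · rw [hH]; exact ddn_le _ _
    obtain ⟨m, hm⟩ := IsPGroup.iff_card.mp hM
    obtain ⟨k, hk⟩ := IsPGroup.iff_card.mp (hM.to_le hHM)
    have hkm : k < m := by
      by_contra hcon
      push Not at hcon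
      apply hH
      apply Subgroup.eq_of_le_of_card_ge hHM
      rw [hm, hk]
      exact Nat.pow_le_pow_right hp.out.pos hcon
    -- a normal subgroup of index `p` containing `H`
    have hk' : Nat.card (H.subgroupOf M) = p ^ k := by
      rw [← hk]; exact Nat.card_congr (Subgroup.subgroupOfEquivOfLe hHM).toEquiv
    obtain ⟨K, hKc, hHK⟩ := Sylow.exists_subgroup_card_pow_prime_le (G := M) (p := p) (n := k) (m := m - 1)
      (by rw [hm]; exact pow_dvd_pow _ (by omega)) (H.subgroupOf M) hk' (by omega)
    have hKi : K.index = p := by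
      have h1 := K.card_mul_index
      rw [hKc, hm] at h1
      have h2 : p ^ m = p ^ (m - 1) * p := by rw [← pow_succ]; congr 1; omega
      rw [h2] at h1
      exact Nat.eq_of_mul_eq_mul_left (pow_pos hp.out.pos _) h1
    haveI hKn : K.Normal := by
      apply Subgroup.normal_of_index_eq_minFac_card
      rw [hKi, hm, hp.out.pow_minFac (by omega)]
    have hcomm : ⁅(⊤ : Subgroup M), ⊤⁆ ≤ K := by
      have hc : Nat.card (M ⧸ K) = p := hKi
      haveI := isCyclic_of_prime_card hc
      have hcm : ∀ a b : M ⧸ K, a * b = b * a := by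
        obtain ⟨g, hg⟩ := IsCyclic.exists_generator (α := M ⧸ K)
        intro a b
        obtain ⟨i, rfl⟩ := Subgroup.mem_zpowers_iff.mp (hg a)
        obtain ⟨j, rfl⟩ := Subgroup.mem_zpowers_iff.mp (hg b)
        rw [← zpow_add, ← zpow_add, add_comm]
      rw [Subgroup.commutator_le]
      intro a _ b _
      rw [← QuotientGroup.eq_one_iff]
      show (QuotientGroup.mk' K) ⁅a, b⁆ = 1
      rw [map_commutatorElement, commutatorElement_def, hcm (QuotientGroup.mk' K a) (QuotientGroup.mk' K b)]
      group
    have hKM : dd M ≤ K.map M.subtype := by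
      have h1 := Subgroup.map_mono (f := M.subtype) hcomm
      rw [Subgroup.map_commutator, ← MonoidHom.range_eq_map, Subgroup.range_subtype] at h1
      exact h1
    have hHK' : H ≤ K.map M.subtype := by
      intro x hx
      exact ⟨⟨x, hHM hx⟩, hHK hx, rfl⟩
    have hKle : K.map M.subtype ≤ M := by
      rintro _ ⟨x, _, rfl⟩; exact x.2
    rw [Function.iterate_succ_apply]
    refine (ddn_mono hKM d).trans (ih _ _ (hM.to_le hKle) hHK' ?_)
    have h1 := Subgroup.relIndex_mul_relIndex H (K.map M.subtype) M hHK' hKle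
    have h2 : (K.map M.subtype).relIndex M = p := by
      show ((K.map M.subtype).comap M.subtype).index = p
      rw [Subgroup.comap_map_eq_self_of_injective M.subtype_injective, hKi]
    rw [h2] at h1
    rw [← h1, pow_succ] at hi
    exact Nat.le_of_mul_le_mul_right hi hp.out.pos

/-- derived length of `p`-subgroups of symmetric groups -/
theorem perm_ddn {n p : ℕ} [hp : Fact p.Prime] (hn : n ≠ 0) (T : Subgroup (Equiv.Perm (Fin n))) (hT : IsPGroup p T) : dd^[Nat.log p n] T = ⊥ := by
  rw [eq_bot_iff]
  intro g hg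
  rw [Subgroup.mem_bot]
  apply Equiv.ext
  intro x
  have h1 : dd^[Nat.log p n] T ≤ T ⊓ MulAction.stabilizer (Equiv.Perm (Fin n)) x := by
    apply ddn_le_of_relIndex _ _ _ hT inf_le_left
    have h2 : (T ⊓ MulAction.stabilizer (Equiv.Perm (Fin n)) x).relIndex T = (MulAction.stabilizer T x).index := by
      rw [Subgroup.relIndex]
      congr 1
      ext y
      rw [Subgroup.mem_subgroupOf, Subgroup.mem_inf, MulAction.mem_stabilizer_iff, MulAction.mem_stabilizer_iff]
      exact ⟨fun h => h.2, fun h => ⟨y.2, h⟩⟩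
    rw [h2, MulAction.index_stabilizer]
    obtain ⟨k, hk⟩ := IsPGroup.iff_card.mp hT
    have h3 : (MulAction.orbit T x).ncard ∣ p ^ k := by
      rw [← hk, ← MulAction.index_stabilizer]
      exact Subgroup.index_dvd_card _
    obtain ⟨l, hl, hl'⟩ := (Nat.dvd_prime_pow hp.out).mp h3
    rw [hl']
    apply Nat.pow_le_pow_right hp.out.pos
    have h4 : (MulAction.orbit T x).ncard ≤ n := by
      have := Set.ncard_le_ncard (Set.subset_univ (MulAction.orbit T x)) (Set.toFinite _)
      rwa [Set.ncard_univ, Nat.card_eq_fintype_card, Fintype.card_fin] at this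
    rw [hl'] at h4
    exact Nat.le_log_of_pow_le hp.out.one_lt h4
  exact (h1 hg).2

/-- lower bounds: wreathing once -/
theorem ddn_wr {H : Type*} [Group H] {d : ℕ} (hd : dd^[d] (⊤ : Subgroup H) ≠ ⊥) (ι : H × H →* G) (hι : Function.Injective ι) (s : G)
    (hs : ∀ a b, s * ι (a, b) * s⁻¹ = ι (b, a)) (L : Subgroup G) (h1 : ∀ x, ι x ∈ L) (h2 : s ∈ L) : dd^[d + 1] L ≠ ⊥ := by
  intro hcon
  apply hd
  let N : Subgroup (H × H) := (dd L).comap ι
  have hN : ∀ a : H, (a, a⁻¹) ∈ N := by
    intro a
    show ι (a, a⁻¹) ∈ dd L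
    have : ι (a, a⁻¹) = ⁅ι (a, 1), s⁆ := by
      rw [commutatorElement_def, mul_assoc, mul_assoc, ← map_inv, ← mul_assoc s, hs, ← map_mul]
      simp
    rw [this]
    exact Subgroup.commutator_mem_commutator (h1 _) h2
  have hfst : N.map (MonoidHom.fst H H) = ⊤ := by
    rw [eq_top_iff]
    intro a _
    exact ⟨(a, a⁻¹), hN a, rfl⟩
  have h3 : dd^[d] N = ⊥ := by
    rw [← Subgroup.map_eq_bot_iff_of_injective _ hι, ddn_map, eq_bot_iff, ← hcon, Function.iterate_succ_apply]
    exact ddn_mono (Subgroup.map_comap_le _ _) d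
  rw [← hfst, ← ddn_map, h3, Subgroup.map_bot]

end

end CfsgLib.H22Wr
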