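import Cfsg.Agent.LibH22Wr3
import Cfsg.Agent.LibH22Wr4
import Cfsg.Agent.S0261

/-! Derived length of the Sylow 2-subgroup of `Sp_2n(q)` (seat helper22). -/

namespace CfsgLib.H22Wr

open Subgroup Equiv Cfsg.Agent.H22 Module
open scoped commutatorElement

section
variable {K G : Type*} [Group K] [Group G] {n : ℕ} {D : (Fin n → K) →* G} {Pm : Perm (Fin n) →* G}

/-- elements with permutation part `π` -/
def Rel (D : (Fin n → K) →* G) (Pm : Perm (Fin n) →* G) (Q : Subgroup K) (g : G) (π : Perm (Fin n)) : Prop :=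
  ∃ A : Fin n → K, (∀ i, A i ∈ Q) ∧ g = D A * Pm π

theorem Rel.mul (h : WR D Pm) {Q : Subgroup K} {g g' : G} {π π' : Perm (Fin n)} (hg : Rel D Pm Q g π) (hg' : Rel D Pm Q g' π') :
    Rel D Pm Q (g * g') (π * π') := by
  obtain ⟨A, hA, rfl⟩ := hg
  obtain ⟨A', hA', rfl⟩ := hg'
  refine ⟨A * fun i => A' (π.symm i), fun i => Q.mul_mem (hA i) (hA' _), ?_⟩
  rw [map_mul, map_mul, mul_assoc, ← mul_assoc (Pm π), h.comm]
  simp only [mul_assoc]

theorem Rel.inv (h : WR D Pm) {Q : Subgroup K} {g : G} {π : Perm (Fin n)} (hg : Rel D Pm Q g π) : Rel D Pm Q g⁻¹ π⁻¹ := by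
  obtain ⟨A, hA, rfl⟩ := hg
  refine ⟨fun i => (A (π i))⁻¹, fun i => Q.inv_mem (hA _), ?_⟩
  rw [mul_inv_rev, ← map_inv, ← map_inv, h.comm]
  rfl

theorem dd_W (h : WR D Pm) (Q : Subgroup K) (T : Subgroup (Perm (Fin n))) : dd (W h Q T) ≤ W h Q (dd T) := by
  unfold dd
  rw [Subgroup.commutator_le]
  rintro g ⟨A, hA, π, hπ, hg⟩ g' ⟨A', hA', π', hπ', hg'⟩
  have h1 : Rel D Pm Q g π := ⟨A, hA, hg⟩
  have h2 : Rel D Pm Q g' π' := ⟨A', hA', hg'⟩
  obtain ⟨B, hB, h3⟩ := ((h1.mul h h2).mul h (h1.inv h)).mul h (h2.inv h)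
  exact ⟨B, hB, _, Subgroup.commutator_mem_commutator hπ hπ', h3⟩

theorem W_mono (h : WR D Pm) (Q : Subgroup K) {T T' : Subgroup (Perm (Fin n))} (hT : T ≤ T') : W h Q T ≤ W h Q T' := by
  rintro g ⟨A, hA, π, hπ, rfl⟩
  exact ⟨A, hA, π, hT hπ, rfl⟩

theorem ddn_W (h : WR D Pm) (Q : Subgroup K) (T : Subgroup (Perm (Fin n))) (d : ℕ) : dd^[d] (W h Q T) ≤ W h Q (dd^[d] T) := by
  induction d with
  | zero => exact le_rfl
  | succ d ih =>
    rw [Function.iterate_succ_apply', Function.iterate_succ_apply']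
    exact (dd_mono ih).trans (dd_W h Q _)

theorem W_bot (h : WR D Pm) (Q : Subgroup K) : W h Q ⊥ ≤ (Subgroup.pi Set.univ fun _ : Fin n => Q).map D := by
  rintro g ⟨A, hA, π, hπ, rfl⟩
  rw [Subgroup.mem_bot] at hπ
  exact ⟨A, fun i _ => hA i, by rw [hπ, map_one, mul_one]⟩

theorem ddn_pi (Q : Subgroup K) (d : ℕ) : dd^[d] (Subgroup.pi Set.univ fun _ : Fin n => Q) = Subgroup.pi Set.univ fun _ : Fin n => dd^[d] Q := by
  induction d with
  | zero => rfl
  | succ d ih =>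
    rw [Function.iterate_succ_apply', Function.iterate_succ_apply', ih]
    exact Subgroup.commutator_pi_pi_of_finite _ _

theorem ddn_W_bot (h : WR D Pm) (Q : Subgroup K) (T : Subgroup (Perm (Fin n))) {d d' : ℕ} (hT : dd^[d] T = ⊥) (hQ : dd^[d'] Q = ⊥) :
    dd^[d' + d] (W h Q T) = ⊥ := by
  rw [eq_bot_iff, Function.iterate_add_apply]
  have h1 := ddn_W h Q T d
  rw [hT] at h1
  refine (ddn_mono (h1.trans (W_bot h Q)) d').trans ?_
  rw [← ddn_map, ddn_pi, hQ]
  rintro _ ⟨A, hA, rfl⟩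
  have : A = 1 := by
    funext i
    exact hA i (Set.mem_univ i)
  rw [this, map_one]
  exact one_mem _

end

/-- second derived group of the quaternion group -/
theorem quat_dd (m : ℕ) : dd^[2] (⊤ : Subgroup (QuaternionGroup m)) = ⊥ := by
  let A : Subgroup (QuaternionGroup m) :=
    { carrier := Set.range QuaternionGroup.a
      mul_mem' := by rintro _ _ ⟨i, rfl⟩ ⟨j, rfl⟩; exact ⟨i + j, by rw [QuaternionGroup.a_mul_a]⟩
      one_mem' := ⟨0, rfl⟩
      inv_mem' := by rintro _ ⟨i, rfl⟩; exact ⟨-i, rfl⟩ }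
  have h1 : dd (⊤ : Subgroup (QuaternionGroup m)) ≤ A := by
    unfold dd
    rw [Subgroup.commutator_le]
    intro x _ y _
    rcases x with i | i <;> rcases y with j | j <;> exact ⟨_, rfl⟩
  rw [Function.iterate_succ_apply, Function.iterate_one, eq_bot_iff]
  refine (dd_mono h1).trans ?_
  unfold dd
  rw [Subgroup.commutator_le]
  rintro _ ⟨i, rfl⟩ _ ⟨j, rfl⟩
  rw [Subgroup.mem_bot, commutatorElement_eq_one_iff_mul_comm, QuaternionGroup.a_mul_a, QuaternionGroup.a_mul_a, add_comm]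

theorem quat_ne (k : ℕ) (hk : 1 ≤ k) : dd (⊤ : Subgroup (QuaternionGroup (2 ^ k))) ≠ ⊥ := by
  intro h
  have h1 : (QuaternionGroup.a 1 : QuaternionGroup (2 ^ k)) * QuaternionGroup.xa 0 = QuaternionGroup.xa 0 * QuaternionGroup.a 1 := by
    rw [← commutatorElement_eq_one_iff_mul_comm, ← Subgroup.mem_bot, ← h]
    exact Subgroup.commutator_mem_commutator (Subgroup.mem_top _) (Subgroup.mem_top _)
  rw [QuaternionGroup.a_mul_xa, QuaternionGroup.xa_mul_a] at h1
  have h2 : (0 : ZMod (2 * 2 ^ k)) - 1 = 0 + 1 := by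
    injection h1
  have h3 : ((2 : ℕ) : ZMod (2 * 2 ^ k)) = 0 := by
    push_cast
    linear_combination -h2
  rw [ZMod.natCast_eq_zero_iff] at h3
  have h4 := Nat.le_of_dvd (by norm_num) h3
  have h5 : 2 ^ 1 ≤ 2 ^ k := Nat.pow_le_pow_right (by norm_num) hk
  omega

theorem ddn_top_equiv {A B : Type*} [Group A] [Group B] (e : A ≃* B) (d : ℕ) : dd^[d] (⊤ : Subgroup A) = ⊥ ↔ dd^[d] (⊤ : Subgroup B) = ⊥ := by
  have h1 : (dd^[d] (⊤ : Subgroup A)).map e.toMonoidHom = dd^[d] (⊤ : Subgroup B) := by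
    rw [ddn_map, Subgroup.map_top_of_surjective _ e.surjective]
  rw [← h1, Subgroup.map_eq_bot_iff_of_injective _ e.injective]

theorem ddn_top_sub {G : Type*} [Group G] (M : Subgroup G) (d : ℕ) : dd^[d] (⊤ : Subgroup M) = ⊥ ↔ dd^[d] M = ⊥ := by
  rw [← Subgroup.map_eq_bot_iff_of_injective (dd^[d] (⊤ : Subgroup M)) M.subtype_injective, ddn_map, ← MonoidHom.range_eq_map, Subgroup.range_subtype]

/-! the lower bound -/

section
variable {F : Type*} [Field F]

/-- existence of a 2-subgroup with nontrivial `d`-th derived group -/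
def ED (F : Type*) [Field F] (d m : ℕ) : Prop := ∃ H : Subgroup (Iso (fV F m)), IsPGroup 2 H ∧ dd^[d] H ≠ ⊥

/-- the form on the orthogonal sum -/
def bS (F : Type*) [Field F] (m r : ℕ) : LinearMap.BilinForm F ((Fin m → Fin 2 → F) × (Fin m → Fin 2 → F) × (Fin r → Fin 2 → F)) :=
  LinearMap.mk₂ F (fun u w => bV F m u.1 w.1 + bV F m u.2.1 w.2.1 + bV F r u.2.2 w.2.2)
    (fun x y z => by simp only [Prod.fst_add, Prod.snd_add, map_add, LinearMap.add_apply]; ring)
    (fun c x y => by simp only [Prod.smul_fst, Prod.smul_snd, map_smul, LinearMap.smul_apply, smul_eq_mul]; ring)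
    (fun x y z => by simp only [Prod.fst_add, Prod.snd_add, map_add]; ring)
    (fun c x y => by simp only [Prod.smul_fst, Prod.smul_snd, map_smul, smul_eq_mul]; ring)

theorem bS_apply {m r : ℕ} (u w : (Fin m → Fin 2 → F) × (Fin m → Fin 2 → F) × (Fin r → Fin 2 → F)) :
    bS F m r u w = bV F m u.1 w.1 + bV F m u.2.1 w.2.1 + bV F r u.2.2 w.2.2 := rfl

theorem iso_bS (m r : ℕ) : Nonempty (Iso (fun u w => bS F m r u w) ≃* Iso (fV F (m + m + r))) := by
  obtain ⟨φ, hφ⟩ := exists_sp_iso (bS F m r) (by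
    intro u
    rw [bS_apply, bV_alt, bV_alt, bV_alt]; ring) (by
    intro x hx
    refine Prod.ext ?_ (Prod.ext ?_ ?_)
    · apply bV_nondeg
      intro y
      have := hx (y, 0, 0)
      rw [bS_apply] at this
      simpa using this
    · apply bV_nondeg
      intro y
      have := hx (0, y, 0)
      rw [bS_apply] at this
      simpa using this
    · apply bV_nondeg
      intro y
      have := hx (0, 0, y)
      rw [bS_apply] at this
      simpa using this) (k := m + m + r) (by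
    have hf : ∀ k : ℕ, Module.finrank F (Fin k → Fin 2 → F) = 2 * k := by
      intro k
      rw [Module.finrank_pi_fintype]; simp [mul_comm]
    rw [Module.finrank_prod, Module.finrank_prod, hf, hf]
    ring)
  obtain ⟨e1⟩ := isoCongr (f := fun x y => spB (m + m + r) F x y) (f₁ := fun u w => bS F m r u w) φ hφ
  obtain ⟨φ', hφ'⟩ := exists_sp_iso (bV F (m + m + r)) bV_alt bV_nondeg (k := m + m + r) (by
    rw [Module.finrank_pi_fintype]; simp [mul_comm])
  obtain ⟨e2⟩ := isoCongr (f := fun x y => spB (m + m + r) F x y) (f₁ := fV F (m + m + r)) φ' (fun x y => hφ' x y)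
  exact ⟨e1.symm.trans e2⟩

/-- block diagonal elements -/
def iL (F : Type*) [Field F] (m r : ℕ) : Iso (fV F m) × Iso (fV F m) →* Iso (fun u w => bS F m r u w) where
  toFun g := ⟨LinearEquiv.prodCongr g.1.1 (LinearEquiv.prodCongr g.2.1 (LinearEquiv.refl F _)), fun x y => by
    show fV F m (g.1.1 x.1) (g.1.1 y.1) + fV F m (g.2.1 x.2.1) (g.2.1 y.2.1) + bV F r x.2.2 y.2.2 = _
    rw [g.1.2, g.2.2]; rfl⟩
  map_one' := rfl
  map_mul' _ _ := rfl

theorem iL_inj (m r : ℕ) : Function.Injective (iL F m r) := by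
  rintro ⟨a, b⟩ ⟨a', b'⟩ h
  have h1 : ∀ x : (Fin m → Fin 2 → F) × (Fin m → Fin 2 → F) × (Fin r → Fin 2 → F), (a.1 x.1, b.1 x.2.1, x.2.2) = (a'.1 x.1, b'.1 x.2.1, x.2.2) :=
    fun x => LinearEquiv.congr_fun (congrArg Subtype.val h) x
  refine Prod.ext (Subtype.ext (LinearEquiv.ext fun v => ?_)) (Subtype.ext (LinearEquiv.ext fun v => ?_))
  · exact congrArg Prod.fst (h1 (v, 0, 0))
  · exact congrArg (fun t => t.2.1) (h1 (0, v, 0))

/-- the swap -/
def sL (F : Type*) [Field F] (m r : ℕ) : Iso (fun u w => bS F m r u w) :=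
  ⟨{ toFun := fun x => (x.2.1, x.1, x.2.2)
     invFun := fun x => (x.2.1, x.1, x.2.2)
     map_add' := fun _ _ => rfl
     map_smul' := fun _ _ => rfl
     left_inv := fun _ => rfl
     right_inv := fun _ => rfl }, fun x y => by
    show bV F m x.2.1 y.2.1 + bV F m x.1 y.1 + bV F r x.2.2 y.2.2 = bV F m x.1 y.1 + bV F m x.2.1 y.2.1 + bV F r x.2.2 y.2.2
    ring⟩

theorem sL_sq (m r : ℕ) : sL F m r * sL F m r = 1 := rfl

theorem sL_conj (m r : ℕ) (a b : Iso (fV F m)) : sL F m r * iL F m r (a, b) * (sL F m r)⁻¹ = iL F m r (b, a) := by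
  rw [mul_inv_eq_iff_eq_mul]
  rfl

/-- the 2-group `(H × H) ⟨s⟩` -/
theorem step {d m r : ℕ} (h : ED F d m) : ED F (d + 1) (m + m + r) := by
  obtain ⟨H, hH, hd⟩ := h
  obtain ⟨e⟩ := iso_bS (F := F) m r
  let L : Subgroup (Iso (fun u w => bS F m r u w)) :=
    { carrier := {g | (∃ a ∈ H, ∃ b ∈ H, g = iL F m r (a, b)) ∨ ∃ a ∈ H, ∃ b ∈ H, g = iL F m r (a, b) * sL F m r}
      mul_mem' := by
        have hc : ∀ a b, sL F m r * iL F m r (a, b) = iL F m r (b, a) * sL F m r := fun a b => rfl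
        rintro _ _ (⟨a, ha, b, hb, rfl⟩ | ⟨a, ha, b, hb, rfl⟩) (⟨a', ha', b', hb', rfl⟩ | ⟨a', ha', b', hb', rfl⟩)
        · left; exact ⟨_, H.mul_mem ha ha', _, H.mul_mem hb hb', by rw [← map_mul]; rfl⟩
        · right; exact ⟨_, H.mul_mem ha ha', _, H.mul_mem hb hb', by rw [← mul_assoc, ← map_mul]; rfl⟩
        · right; exact ⟨_, H.mul_mem ha hb', _, H.mul_mem hb ha', by rw [mul_assoc, hc, ← mul_assoc, ← map_mul]; rfl⟩
        · left
          refine ⟨_, H.mul_mem ha hb', _, H.mul_mem hb ha', ?_⟩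
          rw [mul_assoc, ← mul_assoc (sL F m r), hc, mul_assoc (iL F m r (b', a')), sL_sq, mul_one, ← map_mul]; rfl
      one_mem' := Or.inl ⟨1, H.one_mem, 1, H.one_mem, (map_one _).symm⟩
      inv_mem' := by
        have hc : ∀ a b, sL F m r * iL F m r (a, b) = iL F m r (b, a) * sL F m r := fun a b => rfl
        rintro _ (⟨a, ha, b, hb, rfl⟩ | ⟨a, ha, b, hb, rfl⟩)
        · left; exact ⟨_, H.inv_mem ha, _, H.inv_mem hb, by rw [← map_inv]; rfl⟩
        · right
          refine ⟨_, H.inv_mem hb, _, H.inv_mem ha, ?_⟩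
          rw [mul_inv_rev, ← map_inv, inv_eq_of_mul_eq_one_left (sL_sq (F := F) m r)]
          exact hc _ _ }
  have hLp : IsPGroup 2 L := by
    -- squares lie in the base group
    rintro ⟨g, hg⟩
    have hbase : ∀ a ∈ H, ∀ b ∈ H, ∃ k : ℕ, (iL F m r (a, b)) ^ (2 ^ k) = 1 := by
      intro a ha b hb
      obtain ⟨k, hk⟩ := hH ⟨a, ha⟩
      obtain ⟨l, hl⟩ := hH ⟨b, hb⟩
      have hk' : a ^ (2 ^ k) = 1 := congrArg Subtype.val hk
      have hl' : b ^ (2 ^ l) = 1 := congrArg Subtype.val hl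
      refine ⟨k + l, ?_⟩
      rw [← map_pow]
      have : ((a, b) : Iso (fV F m) × Iso (fV F m)) ^ (2 ^ (k + l)) = 1 := by
        refine Prod.ext ?_ ?_
        · show a ^ (2 ^ (k + l)) = 1
          rw [pow_add, pow_mul, hk', one_pow]
        · show b ^ (2 ^ (k + l)) = 1
          rw [pow_add, mul_comm, pow_mul, hl', one_pow]
      rw [this, map_one]
    rcases hg with ⟨a, ha, b, hb, hg'⟩ | ⟨a, ha, b, hb, hg'⟩
    · obtain ⟨k, hk⟩ := hbase a ha b hb
      exact ⟨k, Subtype.ext (by rw [SubgroupClass.coe_pow]; show g ^ (2 ^ k) = 1; rw [hg', hk])⟩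
    · have hc : ∀ a b, sL F m r * iL F m r (a, b) = iL F m r (b, a) * sL F m r := fun a b => rfl
      have h2 : g * g = iL F m r (a * b, b * a) := by
        rw [hg', mul_assoc, ← mul_assoc (sL F m r), hc, mul_assoc (iL F m r (b, a)), sL_sq, mul_one, ← map_mul]; rfl
      obtain ⟨k, hk⟩ := hbase (a * b) (H.mul_mem ha hb) (b * a) (H.mul_mem hb ha)
      refine ⟨k + 1, Subtype.ext ?_⟩
      rw [SubgroupClass.coe_pow]
      show g ^ (2 ^ (k + 1)) = 1
      rw [pow_succ', pow_mul, pow_two, h2, hk]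
  refine ⟨L.map e.toMonoidHom, hLp.map _, ?_⟩
  rw [← ddn_map]
  intro hcon
  rw [Subgroup.map_eq_bot_iff_of_injective _ e.injective] at hcon
  have hd' : dd^[d] (⊤ : Subgroup H) ≠ ⊥ := fun h0 => hd ((ddn_top_sub H d).mp h0)
  refine ddn_wr hd' ((iL F m r).comp (MonoidHom.prodMap H.subtype H.subtype)) ?_ (sL F m r) ?_ L ?_ ?_ hcon
  · rintro ⟨a, b⟩ ⟨a', b'⟩ hab
    have := iL_inj m r hab
    exact Prod.ext (Subtype.ext (congrArg Prod.fst this)) (Subtype.ext (congrArg Prod.snd this))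
  · rintro ⟨a, ha⟩ ⟨b, hb⟩
    exact sL_conj m r a b
  · rintro ⟨⟨a, ha⟩, ⟨b, hb⟩⟩
    exact Or.inl ⟨a, ha, b, hb, rfl⟩
  · exact Or.inr ⟨1, H.one_mem, 1, H.one_mem, by
      have : iL F m r (1, 1) = 1 := map_one _
      rw [this, one_mul]⟩

end

end CfsgLib.H22Wr
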