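import Cfsg.Agent.LibH22Wr4

/-! Derived length of the Sylow `p`-subgroups of symmetric groups (seat helper22). -/

namespace CfsgLib.H22Wr

open Subgroup Equiv
open scoped commutatorElement

section
variable {G : Type*} [Group G]

/-- lower bounds: wreathing once (general form) -/
theorem ddn_wr' {H : Type*} [Group H] {d : ℕ} (hd : dd^[d] (⊤ : Subgroup H) ≠ ⊥) (ι : H × H →* G) (hι : Function.Injective ι) (s : G)
    (hs : ∀ a, s * ι (a, 1) * s⁻¹ = ι (1, a)) (L : Subgroup G) (h1 : ∀ x, ι x ∈ L) (h2 : s ∈ L) : dd^[d + 1] L ≠ ⊥ := by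
  intro hcon
  apply hd
  let N : Subgroup (H × H) := (dd L).comap ι
  have hN : ∀ a : H, (a, a⁻¹) ∈ N := by
    intro a
    show ι (a, a⁻¹) ∈ dd L
    have : ι (a, a⁻¹) = ⁅ι (a, 1), s⁆ := by
      have h3 : s * (ι (a, 1))⁻¹ * s⁻¹ = (ι (1, a))⁻¹ := by
        rw [← hs]; group
      rw [commutatorElement_def, mul_assoc, mul_assoc, ← mul_assoc s, h3, ← map_inv, ← map_mul]
      simp
    rw [this]
    exact Subgroup.commutator_mem_commutator (h1 _) h2
  have hfst : N.map (MonoidHom.fst H H) = ⊤ := by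
    rw [eq_top_iff]
    intro a _
    exact ⟨(a, a⁻¹), hN a, rfl⟩
  have h3 : dd^[d] N = ⊥ := by
    rw [← Subgroup.map_eq_bot_iff_of_injective _ hι, ddn_map, eq_bot_iff, ← hcon, Function.iterate_succ_apply]
    exact ddn_mono (Subgroup.map_comap_le _ _) d
  rw [← hfst, ← ddn_map, h3, Subgroup.map_bot]

end

section
variable {p : ℕ} [hp : Fact p.Prime] {κ : Type}

/-- block diagonal permutations -/
def dP (p : ℕ) (κ : Type) : (ZMod p → Perm κ) →* Perm (κ × ZMod p) where
  toFun A := { toFun := fun x => (A x.2 x.1, x.2), invFun := fun x => ((A x.2).symm x.1, x.2), left_inv := fun x => by simp, right_inv := fun x => by simp }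
  map_one' := rfl
  map_mul' A B := rfl

theorem dP_apply (A : ZMod p → Perm κ) (x : κ) (i : ZMod p) : dP p κ A (x, i) = (A i x, i) := rfl

/-- the shift -/
def sP (p : ℕ) (κ : Type) (c : ZMod p) : Perm (κ × ZMod p) where
  toFun x := (x.1, x.2 + c)
  invFun x := (x.1, x.2 - c)
  left_inv x := by simp
  right_inv x := by simp

theorem sP_apply (c : ZMod p) (x : κ) (i : ZMod p) : sP p κ c (x, i) = (x, i + c) := rfl

def RP (H : Subgroup (Perm κ)) (g : Perm (κ × ZMod p)) (c : ZMod p) : Prop :=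
  ∃ A : ZMod p → Perm κ, (∀ i, A i ∈ H) ∧ ∀ x i, g (x, i) = (A i x, i + c)

theorem RP.mul {H : Subgroup (Perm κ)} {g g' : Perm (κ × ZMod p)} {c c' : ZMod p} (h : RP H g c) (h' : RP H g' c') : RP H (g * g') (c' + c) := by
  obtain ⟨A, hA, hg⟩ := h
  obtain ⟨A', hA', hg'⟩ := h'
  refine ⟨fun i => A (i + c') * A' i, fun i => H.mul_mem (hA _) (hA' _), fun x i => ?_⟩
  rw [Perm.mul_apply, hg', hg, add_assoc]
  rfl

theorem RP.one (H : Subgroup (Perm κ)) : RP (p := p) H 1 0 := ⟨fun _ => 1, fun _ => H.one_mem, fun x i => by simp⟩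

theorem RP.inv {H : Subgroup (Perm κ)} {g : Perm (κ × ZMod p)} {c : ZMod p} (h : RP H g c) : RP H g⁻¹ (-c) := by
  obtain ⟨A, hA, hg⟩ := h
  refine ⟨fun i => (A (i - c))⁻¹, fun i => H.inv_mem (hA _), fun x i => ?_⟩
  rw [Perm.inv_eq_iff_eq, hg]
  simp [sub_eq_add_neg]

theorem RP.pow {H : Subgroup (Perm κ)} {g : Perm (κ × ZMod p)} {c : ZMod p} (h : RP H g c) (m : ℕ) : RP H (g ^ m) (m * c) := by
  induction m with
  | zero => simpa using RP.one H
  | succ m ih =>
    rw [pow_succ]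
    have := ih.mul h
    have e : c + (m : ZMod p) * c = ((m + 1 : ℕ) : ZMod p) * c := by push_cast; ring
    rwa [e] at this

/-- the wreath product -/
def LP (p : ℕ) [Fact p.Prime] (H : Subgroup (Perm κ)) : Subgroup (Perm (κ × ZMod p)) where
  carrier := {g | ∃ c, RP H g c}
  mul_mem' := by rintro _ _ ⟨c, h⟩ ⟨c', h'⟩; exact ⟨_, h.mul h'⟩
  one_mem' := ⟨0, RP.one H⟩
  inv_mem' := by rintro _ ⟨c, h⟩; exact ⟨_, h.inv⟩

theorem LP_pgroup [Finite κ] {H : Subgroup (Perm κ)} (hH : IsPGroup p H) : IsPGroup p (LP p H) := by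
  obtain ⟨k, hk⟩ := IsPGroup.iff_card.mp hH
  rintro ⟨g, c, hg⟩
  have h1 := hg.pow p
  rw [CharP.cast_eq_zero, zero_mul] at h1
  refine ⟨1 + k, Subtype.ext ?_⟩
  rw [SubgroupClass.coe_pow, pow_add, pow_one, pow_mul]
  show (g ^ p) ^ (p ^ k) = 1
  obtain ⟨A, hA, hg'⟩ := h1
  have h2 : ∀ m : ℕ, ∀ x i, ((g ^ p) ^ m) (x, i) = ((A i ^ m) x, i) := by
    intro m
    induction m with
    | zero => intro x i; simp
    | succ m ih =>
      intro x i
      rw [pow_succ, Perm.mul_apply, hg', add_zero, ih, pow_succ, Perm.mul_apply]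
  apply Equiv.ext
  rintro ⟨x, i⟩
  rw [h2]
  have h3 : (A i) ^ (p ^ k) = 1 := by
    have := pow_card_eq_one' (G := H) (x := ⟨A i, hA i⟩)
    rw [hk] at this
    exact congrArg Subtype.val this
  rw [h3]; rfl

theorem ddn_top_sub6 {G : Type*} [Group G] (M : Subgroup G) (d : ℕ) : dd^[d] (⊤ : Subgroup M) = ⊥ ↔ dd^[d] M = ⊥ := by
  rw [← Subgroup.map_eq_bot_iff_of_injective (dd^[d] (⊤ : Subgroup M)) M.subtype_injective, ddn_map, ← MonoidHom.range_eq_map, Subgroup.range_subtype]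

/-- the first two blocks -/
def iP (p : ℕ) [Fact p.Prime] (H : Subgroup (Perm κ)) : H × H →* Perm (κ × ZMod p) where
  toFun x := dP p κ fun i => if i = 0 then x.1 else if i = 1 then x.2 else 1
  map_one' := by
    rw [← map_one (dP p κ)]
    congr 1
    funext i
    simp
  map_mul' x y := by
    rw [← map_mul]
    congr 1
    funext i
    simp only [Pi.mul_apply, Prod.fst_mul, Prod.snd_mul, Subgroup.coe_mul]
    split_ifs
    · rfl
    · rfl
    · rw [one_mul]

theorem iP_apply (H : Subgroup (Perm κ)) (a : H × H) (x : κ) (i : ZMod p) :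
    iP p H a (x, i) = ((if i = 0 then (a.1 : Perm κ) else if i = 1 then (a.2 : Perm κ) else 1) x, i) := rfl

theorem stepP {H : Subgroup (Perm κ)} {d : ℕ} (hd : dd^[d] H ≠ ⊥) : dd^[d + 1] (LP p H) ≠ ⊥ := by
  have h01 : (1 : ZMod p) ≠ 0 := one_ne_zero
  have hd' : dd^[d] (⊤ : Subgroup H) ≠ ⊥ := fun h0 => hd ((ddn_top_sub6 H d).mp h0)
  refine ddn_wr' hd' (iP p H) ?_ (sP p κ 1) ?_ (LP p H) ?_ ?_
  · rintro ⟨⟨a, ha⟩, ⟨b, hb⟩⟩ ⟨⟨a', ha'⟩, ⟨b', hb'⟩⟩ h
    refine Prod.ext (Subtype.ext (Equiv.ext fun x => ?_)) (Subtype.ext (Equiv.ext fun x => ?_))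
    · have h1 := congrArg Prod.fst (Equiv.congr_fun h (x, (0 : ZMod p)))
      rw [iP_apply, iP_apply] at h1
      simpa using h1
    · have h1 := congrArg Prod.fst (Equiv.congr_fun h (x, (1 : ZMod p)))
      rw [iP_apply, iP_apply] at h1
      simpa [h01] using h1
  · intro a
    rw [mul_inv_eq_iff_eq_mul]
    apply Equiv.ext
    rintro ⟨x, i⟩
    rw [Perm.mul_apply, Perm.mul_apply, iP_apply, sP_apply, sP_apply, iP_apply]
    refine Prod.ext ?_ rfl
    show (if i = 0 then (a : Perm κ) else if i = 1 then 1 else 1) x = (if i + 1 = 0 then (1 : Perm κ) else if i + 1 = 1 then (a : Perm κ) else 1) x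
    by_cases h0 : i = 0
    · rw [h0]; simp [h01]
    · have h1 : ¬ (i + 1 = 1) := fun h => h0 (by linear_combination h)
      simp [h0, h1]
  · intro a
    refine ⟨0, fun i => if i = 0 then a.1 else if i = 1 then a.2 else 1, fun i => ?_, fun x i => ?_⟩
    · show (if i = 0 then (a.1 : Perm κ) else if i = 1 then (a.2 : Perm κ) else 1) ∈ H
      split_ifs
      · exact a.1.2
      · exact a.2.2
      · exact H.one_mem
    · rw [iP_apply, add_zero]
  · exact ⟨1, fun _ => 1, fun _ => H.one_mem, fun x i => rfl⟩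

/-- there are `p`-groups of degree `p ^ (d + 1)` with nontrivial `d`-th derived group -/
theorem existsP (p : ℕ) [hp : Fact p.Prime] (d : ℕ) : ∃ (κ : Type) (_ : Finite κ) (H : Subgroup (Perm κ)), Nat.card κ = p ^ (d + 1) ∧ IsPGroup p H ∧ dd^[d] H ≠ ⊥ := by
  induction d with
  | zero =>
    haveI : NeZero p := ⟨hp.out.ne_zero⟩
    refine ⟨ZMod p, inferInstance, Subgroup.zpowers (Equiv.addRight (1 : ZMod p)), by simp, ?_, ?_⟩
    · have h1 : ∀ m : ℕ, ∀ x, ((Equiv.addRight (1 : ZMod p)) ^ m) x = x + m := by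
        intro m
        induction m with
        | zero => intro x; simp
        | succ m ih => intro x; rw [pow_succ', Perm.mul_apply, ih]; push_cast; simp [add_assoc]
      have h2 : (Equiv.addRight (1 : ZMod p)) ^ p = 1 := by
        apply Equiv.ext
        intro x
        rw [h1]; simp
      rintro ⟨g, hg⟩
      obtain ⟨k, rfl⟩ := Subgroup.mem_zpowers_iff.mp hg
      refine ⟨1, Subtype.ext ?_⟩
      show ((Equiv.addRight (1 : ZMod p)) ^ k) ^ (p ^ 1) = 1
      rw [pow_one, ← zpow_natCast, ← zpow_mul, mul_comm, zpow_mul, zpow_natCast, h2, one_zpow]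
    · show Subgroup.zpowers (Equiv.addRight (1 : ZMod p)) ≠ ⊥
      rw [Ne, Subgroup.zpowers_eq_bot]
      intro h
      have := Equiv.congr_fun h 0
      simp at this
  | succ d ih =>
    obtain ⟨κ, hκ, H, hc, hH, hd⟩ := ih
    haveI : NeZero p := ⟨hp.out.ne_zero⟩
    refine ⟨κ × ZMod p, inferInstance, LP p H, ?_, LP_pgroup hH, stepP hd⟩
    rw [Nat.card_prod, hc, Nat.card_zmod, pow_succ _ (d + 1)]

end

end CfsgLib.H22Wr
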