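import Cfsg.Agent.EqBase
import Cfsg.Agent.LibH6PSplit
import Cfsg.Agent.LibFgClass

set_option autoImplicit false
open Subgroup
namespace CfsgLib.H2JH

variable {G : Type*} [Group G]

/-- The size of the conjugacy class of `z`. -/
noncomputable def cs (z : G) : ℕ := (centralizer ({z} : Set G)).index
def cl (x : G) : Set G := {w | IsConj x w}

theorem mc {x g : G} : g ∈ centralizer ({x} : Set G) ↔ g * x = x * g := mem_centralizer_singleton_iff

theorem mem_cl {x w : G} : w ∈ cl x ↔ IsConj x w := Iff.rfl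

theorem ncard_cl (x : G) : (cl x).ncard = cs x := by
  rw [cs, ← CfsgLib.FgClass.ncard_carrier]
  congr 1

theorem cs_eq {a b : G} (h : IsConj a b) : cs a = cs b := by
  rw [← ncard_cl, ← ncard_cl]
  congr 1
  ext w
  exact ⟨fun h1 => h.symm.trans h1, fun h1 => h.trans h1⟩

theorem cs_dvd {a b : G} (h : centralizer ({a} : Set G) ≤ centralizer ({b} : Set G)) : cs b ∣ cs a :=
  index_dvd_of_le h

theorem cs_pos [Finite G] (a : G) : 0 < cs a := Nat.pos_of_ne_zero index_ne_zero_of_finite

theorem cent_eq [Finite G] {a b : G} (h : centralizer ({a} : Set G) ≤ centralizer ({b} : Set G)) (hc : cs b = cs a) :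
    centralizer ({a} : Set G) = centralizer ({b} : Set G) := by
  apply eq_of_le_of_card_ge h
  have h1 := (centralizer ({a} : Set G)).card_mul_index
  have h2 := (centralizer ({b} : Set G)).card_mul_index
  unfold cs at hc
  rw [← hc] at h1
  have h3 := h1.trans h2.symm
  exact (Nat.eq_of_mul_eq_mul_right (Nat.pos_of_ne_zero index_ne_zero_of_finite) h3).ge

theorem cs_center {a : G} : cs a = 1 ↔ a ∈ center G := by
  unfold cs
  rw [index_eq_one, mem_center_iff, eq_top_iff']
  exact forall_congr' (fun g => by rw [mc])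

theorem cs_congr {a b : G} (h : centralizer ({a} : Set G) = centralizer ({b} : Set G)) : cs a = cs b := by
  unfold cs; rw [h]

theorem cent_inv (a : G) : centralizer ({a⁻¹} : Set G) = centralizer ({a} : Set G) := by
  ext g
  rw [mc, mc]
  exact ⟨fun h => by have := (show Commute g a⁻¹ from h).inv_right; rwa [inv_inv] at this,
    fun h => (show Commute g a from h).inv_right⟩

theorem cent_pow_le (a : G) (k : ℕ) : centralizer ({a} : Set G) ≤ centralizer ({a ^ k} : Set G) := by
  intro g hg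
  rw [mc] at hg ⊢
  exact (show Commute g a from hg).pow_right k

theorem cent_center_mul {z : G} (hz : z ∈ center G) (a : G) :
    centralizer ({z * a} : Set G) = centralizer ({a} : Set G) := by
  ext g
  rw [mc, mc]
  have h1 : g * z = z * g := mem_center_iff.mp hz g
  rw [← mul_assoc, h1, mul_assoc, mul_assoc]
  exact mul_right_inj z

/-- In a commuting pair of elements of coprime orders both are powers of the product. -/
theorem cent_mul_of_coprime {a b : G} (hab : a * b = b * a) (h : (orderOf a).Coprime (orderOf b)) :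
    centralizer ({a * b} : Set G) = centralizer ({a} : Set G) ⊓ centralizer ({b} : Set G) := by
  have hc : Commute a b := hab
  apply le_antisymm
  · intro g hg
    rw [mc] at hg
    have hg' : Commute g (a * b) := hg
    -- `a` is a power of `a * b`
    have key : ∀ {a b : G}, Commute a b → (orderOf a).Coprime (orderOf b) → Commute g (a * b) → Commute g a := by
      intro a b hc h hg'
      have h1 : (a * b) ^ (orderOf b) = a ^ (orderOf b) := by rw [hc.mul_pow, pow_orderOf_eq_one, mul_one]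
      have h2 : Commute g (a ^ orderOf b) := by rw [← h1]; exact hg'.pow_right _
      obtain ⟨k, hk⟩ := exists_pow_eq_self_of_coprime h.symm
      rw [← hk]
      exact h2.pow_right k
    refine ⟨mc.mpr (key hc h hg'), mc.mpr (key hc.symm h.symm ?_)⟩
    rw [← hab]; exact hg'
  · intro g hg
    have h1 := mc.mp (mem_inf.mp hg).1
    have h2 := mc.mp (mem_inf.mp hg).2
    rw [mc]
    exact (show Commute g a from h1).mul_right (show Commute g b from h2)

theorem conj_mul [Finite G] {u v : G} (h : (cs u).Coprime (cs v)) (g k : G) :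
    IsConj (u * v) ((g * u * g⁻¹) * (k * v * k⁻¹)) := by
  obtain ⟨t, ht, h1⟩ := CfsgLib.H6.coprime_conj u (centralizer ({v} : Set G)) h (k⁻¹ * g)
  rw [mc] at ht
  rw [isConj_iff]
  refine ⟨k * t, ?_⟩
  have h2 : t * v * t⁻¹ = v := by rw [ht]; group
  calc k * t * (u * v) * (k * t)⁻¹ = k * (t * u * t⁻¹) * k⁻¹ * (k * (t * v * t⁻¹) * k⁻¹) := by group
    _ = _ := by rw [h1, h2]; group

theorem cs_ge_right [Finite G] {u v : G} (h : (cs u).Coprime (cs v)) : cs v ≤ cs (u * v) := by
  rw [← ncard_cl v, ← ncard_cl (u*v), ← Set.ncard_image_of_injective (cl v) (mul_right_injective u)]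
  apply Set.ncard_le_ncard _ (Set.toFinite _)
  rintro _ ⟨w, hw, rfl⟩
  obtain ⟨k, rfl⟩ := isConj_iff.mp hw
  have := conj_mul h 1 k
  simpa [mem_cl] using this

theorem cs_ge_left [Finite G] {u v : G} (h : (cs u).Coprime (cs v)) : cs u ≤ cs (u * v) := by
  rw [← ncard_cl u, ← ncard_cl (u*v), ← Set.ncard_image_of_injective (cl u) (mul_left_injective v)]
  apply Set.ncard_le_ncard _ (Set.toFinite _)
  rintro _ ⟨w, hw, rfl⟩
  obtain ⟨k, rfl⟩ := isConj_iff.mp hw
  have := conj_mul h k 1
  simpa [mem_cl] using this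

theorem card_dvd_of_stable [Finite G] (M : Subgroup G) (S : Set G) (h : ∀ k ∈ M, ∀ s ∈ S, k * s ∈ S) :
    Nat.card M ∣ S.ncard := by
  have h1 : ((fun g : G => g⁻¹) '' S).ncard = S.ncard := Set.ncard_image_of_injective S inv_injective
  rw [← h1]
  set S' := (fun g : G => g⁻¹) '' S with hS'
  have h2 : (QuotientGroup.mk : G → G ⧸ M) ⁻¹' ((QuotientGroup.mk : G → G ⧸ M) '' S') = S' := by
    ext g
    constructor
    · rintro ⟨s, ⟨t, ht, rfl⟩, hs⟩
      have h3 : (t⁻¹)⁻¹ * g ∈ M := QuotientGroup.eq.mp hs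
      rw [inv_inv] at h3
      refine ⟨g⁻¹, ?_, inv_inv g⟩
      have h4 := h _ (inv_mem h3) t ht
      have h5 : (t * g)⁻¹ * t = g⁻¹ := by group
      rwa [h5] at h4
    · intro hg
      exact ⟨g, hg, rfl⟩
  rw [← h2, ← Nat.card_coe_set_eq, Nat.card_congr (QuotientGroup.preimageMkEquivSubgroupProdSet M _), Nat.card_prod]
  exact dvd_mul_right _ _

theorem prim [Finite G] {w : G} (hw : w ∉ center G) :
    ∃ q k j : ℕ, q.Prime ∧ w ^ k ∉ center G ∧ orderOf (w ^ k) = q ^ j := by
  have h1 : orderOf (QuotientGroup.mk' (center G) w) ≠ 1 := by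
    rw [Ne, orderOf_eq_one_iff]
    intro h
    exact hw ((QuotientGroup.eq_one_iff w).mp h)
  obtain ⟨q, hq, hqd⟩ := Nat.exists_prime_and_dvd h1
  obtain ⟨e, f, hef, ⟨j, hj⟩, hf⟩ := CfsgLib.H6.exists_p_decomp q hq w
  refine ⟨q, e, j, hq, ?_, hj⟩
  intro hcen
  have h2 : QuotientGroup.mk' (center G) w = QuotientGroup.mk' (center G) (w ^ f) := by
    conv_lhs => rw [← hef]
    rw [map_mul, (QuotientGroup.eq_one_iff (w ^ e)).mpr hcen |> (fun h => (h : QuotientGroup.mk' (center G) (w ^ e) = 1)), one_mul]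
  rw [h2] at hqd
  have h3 : orderOf (QuotientGroup.mk' (center G) (w ^ f)) ∣ orderOf (w ^ f) := orderOf_map_dvd _ _
  have h4 := hqd.trans h3
  have h5 := Nat.eq_one_of_dvd_coprimes hf h4 dvd_rfl
  exact hq.one_lt.ne' h5

structure Hyp (G : Type*) [Group G] (m n : ℕ) : Prop where
  lt : n < m
  one : 1 < n
  cop : m.Coprime n
  top : ∀ z : G, cs z ≤ m
  sec : ∀ z : G, cs z < m → cs z ≤ n

/-- Elements whose left multiplication preserves every class of size `m`. -/
def Rs (G : Type*) [Group G] [Finite G] (m : ℕ) : Subgroup G where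
  carrier := {r | ∀ w : G, cs w = m → IsConj (r * w) w}
  mul_mem' := by
    intro r s hr hs w hw
    have h1 := hs w hw
    have h2 := hr (s * w) (by rw [cs_eq h1, hw])
    rw [mul_assoc]
    exact h2.trans h1
  one_mem' := by
    intro w _
    rw [one_mul]
  inv_mem' := by
    intro r hr
    have hp : ∀ k : ℕ, ∀ w : G, cs w = m → IsConj (r ^ k * w) w := by
      intro k
      induction k with
      | zero => intro w _; rw [pow_zero, one_mul]
      | succ k ih =>
        intro w hw
        have h1 := hr w hw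
        have h2 := ih (r * w) (by rw [cs_eq h1, hw])
        rw [pow_succ, mul_assoc]
        exact h2.trans h1
    have h1 : r⁻¹ = r ^ (orderOf r - 1) := by
      rw [inv_eq_iff_mul_eq_one, ← pow_succ', Nat.sub_add_cancel (orderOf_pos r), pow_orderOf_eq_one]
    rw [h1]
    exact hp _

theorem mem_Rs [Finite G] {m : ℕ} {r : G} : r ∈ Rs G m ↔ ∀ w : G, cs w = m → IsConj (r * w) w := Iff.rfl

instance Rs_normal [Finite G] {m : ℕ} : (Rs G m).Normal := by
  constructor
  intro r hr g w hw
  have h1 : IsConj (g⁻¹ * w * g) w := isConj_iff.mpr ⟨g, by group⟩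
  have h2 := hr (g⁻¹ * w * g) (by rw [cs_eq h1, hw])
  have h3 : IsConj (r * (g⁻¹ * w * g)) (g * r * g⁻¹ * w) := isConj_iff.mpr ⟨g, by group⟩
  exact h3.symm.trans (h2.trans h1)

theorem card_Rs_dvd [Finite G] {m : ℕ} {y : G} (hy : cs y = m) : Nat.card (Rs G m) ∣ m := by
  conv_rhs => rw [← hy, ← ncard_cl y]
  apply card_dvd_of_stable
  intro k hk s hs
  have h1 : cs s = m := by rw [← cs_eq hs, hy]
  exact (mem_cl.mp hs).trans (hk s h1).symm

theorem comm_mem_Rs [Finite G] {m n : ℕ} (H : Hyp G m n) {v : G} (hv : (cs v).Coprime m) (g : G) :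
    v⁻¹ * (g * v * g⁻¹) ∈ Rs G m := by
  intro w hw
  have hv' : (cs v).Coprime (cs w) := by rw [hw]; exact hv
  have h1 : cs (v * w) = m := le_antisymm (H.top _) (by rw [← hw]; exact cs_ge_right hv')
  have h2 : IsConj (v * w) (g * v * g⁻¹ * w) := by
    have := conj_mul hv' g 1
    simpa using this
  have h3 : (cs v⁻¹).Coprime (cs (v * w)) := by rw [cs_congr (cent_inv v), h1]; exact hv
  obtain ⟨k, hk⟩ := isConj_iff.mp h2
  have h4 := conj_mul h3 1 k
  rw [hk] at h4
  simp only [one_mul, inv_one, mul_one, inv_mul_cancel_left] at h4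
  have h5 : v⁻¹ * (g * v * g⁻¹) * w = v⁻¹ * (g * v * g⁻¹ * w) := by group
  rw [h5]
  exact h4.symm

theorem Rs_le_cent [Finite G] {m : ℕ} {y : G} (hy : cs y = m) {v : G} (hv : (cs v).Coprime m) :
    Rs G m ≤ centralizer ({v} : Set G) :=
  CfsgLib.FgClass.normal_le_of_coprime_index
    (Nat.Coprime.coprime_dvd_left (card_Rs_dvd hy) hv.symm)

def As (G : Type*) [Group G] [Finite G] (m : ℕ) : Subgroup G := Rs G m ⊓ centralizer (Rs G m : Set G)

instance As_normal [Finite G] {m : ℕ} : (As G m).Normal := by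
  unfold As
  haveI : (centralizer (Rs G m : Set G)).Normal := inferInstance
  infer_instance

theorem As_comm [Finite G] {m : ℕ} {a b : G} (ha : a ∈ As G m) (hb : b ∈ As G m) : a * b = b * a :=
  mem_centralizer_iff.mp hb.2 a ha.1

theorem dec_aux [Finite G] (A : Subgroup G) [A.Normal] (hA : ∀ a ∈ A, ∀ b ∈ A, a * b = b * a) {v : G}
    (hc : ∀ g : G, v⁻¹ * (g * v * g⁻¹) ∈ A) (hcop : (cs v).Coprime (Nat.card A)) :
    ∃ z ∈ center G, ∃ c ∈ A, v = z * c := by
  classical
  letI : CommGroup A := { (inferInstance : Group A) with mul_comm := fun a b => Subtype.ext (hA a a.2 b b.2) }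
  haveI := Fintype.ofFinite (cl v)
  have hcl : ∀ w : cl v, v⁻¹ * (w : G) ∈ A := by
    rintro ⟨w, hw⟩
    obtain ⟨g, rfl⟩ := isConj_iff.mp hw
    exact hc g
  let F : cl v → A := fun w => ⟨v⁻¹ * w, hcl w⟩
  set N : A := ∏ w : cl v, F w with hN
  -- the root of the norm
  let e := powCoprime hcop.symm
  obtain ⟨c, hck⟩ := e.surjective N
  have hck' : c ^ cs v = N := hck
  have key : ∀ g : G, (⟨v⁻¹ * (g * v * g⁻¹), hc g⟩ : A) * (MulAut.conjNormal g c) = c := by
    intro g
    apply e.injective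
    show (_ * _) ^ cs v = c ^ cs v
    rw [mul_pow, ← map_pow, hck', hN, map_prod]
    have hperm : (∏ w : cl v, F w) = ∏ w : cl v, (⟨v⁻¹ * (g * v * g⁻¹), hc g⟩ : A) * MulAut.conjNormal g (F w) := by
      let σ : cl v ≃ cl v :=
        { toFun := fun w => ⟨g * w * g⁻¹, (mem_cl.mp w.2).trans (isConj_iff.mpr ⟨g, rfl⟩)⟩
          invFun := fun w => ⟨g⁻¹ * w * g, (mem_cl.mp w.2).trans (isConj_iff.mpr ⟨g⁻¹, by group⟩)⟩
          left_inv := fun w => Subtype.ext (by show g⁻¹ * (g * (w : G) * g⁻¹) * g = w; group)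
          right_inv := fun w => Subtype.ext (by show g * (g⁻¹ * (w : G) * g) * g⁻¹ = w; group) }
      refine (Fintype.prod_equiv σ _ _ (fun w => ?_)).symm
      apply Subtype.ext
      show v⁻¹ * (g * v * g⁻¹) * (g * (v⁻¹ * w) * g⁻¹) = v⁻¹ * (g * w * g⁻¹)
      group
    rw [hperm, Finset.prod_mul_distrib, Finset.prod_const, Finset.card_univ, ← Nat.card_eq_fintype_card,
      Nat.card_coe_set_eq, ncard_cl]
  refine ⟨v * c, ?_, (c : G)⁻¹, inv_mem c.2, by group⟩
  rw [mem_center_iff]
  intro g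
  have h1 := congrArg Subtype.val (key g)
  have h2 : v⁻¹ * (g * v * g⁻¹) * (g * (c : G) * g⁻¹) = c := h1
  have h3 : v⁻¹ * g * (v * c) = c * g := by
    calc v⁻¹ * g * (v * c) = (v⁻¹ * (g * v * g⁻¹) * (g * (c : G) * g⁻¹)) * g := by group
      _ = _ := by rw [h2]
  calc g * (v * c) = v * (v⁻¹ * g * (v * c)) := by group
    _ = v * (c * g) := by rw [h3]
    _ = v * c * g := by group

theorem dec [Finite G] {m n : ℕ} (H : Hyp G m n) {y : G} (hy : cs y = m) {v : G} (hv : (cs v).Coprime m) :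
    ∃ z ∈ center G, ∃ c ∈ As G m, v = z * c := by
  apply dec_aux (As G m) (fun a ha b hb => As_comm ha hb)
  · intro g
    refine mem_inf.mpr ⟨comm_mem_Rs H hv g, ?_⟩
    have h1 : v ∈ centralizer (Rs G m : Set G) := mem_centralizer_iff.mpr (fun r hr => mc.mp (Rs_le_cent hy hv hr))
    haveI : (centralizer (Rs G m : Set G)).Normal := inferInstance
    exact mul_mem (inv_mem h1) (this.conj_mem v h1 g)
  · apply Nat.Coprime.coprime_dvd_right _ hv
    exact (card_dvd_of_le inf_le_left).trans (card_Rs_dvd hy)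

end CfsgLib.H2JH
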