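import Cfsg.Agent.LibH2JH1

set_option autoImplicit false
open Subgroup
open scoped Pointwise
namespace CfsgLib.H2JH

variable {G : Type*} [Group G] [Finite G] {m n : ℕ}

theorem rel_card (K C : Subgroup G) : C.relIndex K * Nat.card ↥(K ⊓ C) = Nat.card K := by
  have h1 := relIndex_mul_index (inf_le_left : K ⊓ C ≤ K)
  rw [inf_relIndex_left] at h1
  have h2 := K.card_mul_index
  have h3 := (K ⊓ C).card_mul_index
  rw [← h1, ← h2, ← mul_assoc] at h3
  have h4 := Nat.eq_of_mul_eq_mul_right (Nat.pos_of_ne_zero (index_ne_zero_of_finite (H := K))) h3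
  rw [← h4, mul_comm]

theorem rel_le (K C : Subgroup G) : C.relIndex K ≤ C.index := by
  rw [← relIndex_top_right]
  exact relIndex_le_of_le_right le_top (by rw [relIndex_top_right]; exact index_ne_zero_of_finite)

theorem As_le_Rs : As G m ≤ Rs G m := inf_le_left

theorem card_As_dvd {y : G} (hy : cs y = m) : Nat.card (As G m) ∣ m :=
  (card_dvd_of_le inf_le_left).trans (card_Rs_dvd hy)

/-- Elements whose class size is coprime to `m` have size at most `n`. -/
theorem cs_n (H : Hyp G m n) {v : G} (hv : cs v = n) : (cs v).Coprime m := by rw [hv]; exact H.cop.symm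

theorem lt_card_As (H : Hyp G m n) {x : G} (hx : cs x = n) (hxA : x ∈ As G m) : n < Nat.card (As G m) := by
  have h1 : insert 1 (cl x) ⊆ (As G m : Set G) := by
    intro w hw
    rcases hw with rfl | hw
    · exact one_mem _
    · obtain ⟨g, rfl⟩ := isConj_iff.mp hw
      exact As_normal.conj_mem x hxA g
  have h2 := Set.ncard_le_ncard h1 (Set.toFinite _)
  have h3 : (1 : G) ∉ cl x := by
    intro h
    have : x = 1 := by
      obtain ⟨g, hg⟩ := isConj_iff.mp (mem_cl.mp h)
      have : g * x = g := by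
        calc g * x = (g * x * g⁻¹) * g := by group
          _ = g := by rw [hg, one_mul]
      exact mul_eq_left.mp this
    rw [this] at hx
    have h4 : cs (1 : G) = 1 := cs_center.mpr (one_mem _)
    have := H.one
    omega
  rw [Set.ncard_insert_of_notMem h3, ncard_cl, hx] at h2
  have h4 : (As G m : Set G).ncard = Nat.card (As G m) := (Nat.card_coe_set_eq _).symm
  rw [h4] at h2
  omega

theorem exists_comm (H : Hyp G m n) {x : G} (hx : cs x = n) (hxA : x ∈ As G m) {e : G} (he : cs e ≤ n) :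
    ∃ a ∈ As G m, a ≠ 1 ∧ a * e = e * a := by
  by_contra hcon
  push Not at hcon
  have h1 : As G m ⊓ centralizer ({e} : Set G) = ⊥ := by
    rw [eq_bot_iff]
    intro a ha
    rw [mem_inf] at ha
    rw [mem_bot]
    by_contra hne
    exact hcon a ha.1 hne (mc.mp ha.2)
  have h2 := rel_card (As G m) (centralizer ({e} : Set G))
  rw [h1, card_bot, mul_one] at h2
  have h3 : (centralizer ({e} : Set G)).relIndex (As G m) ≤ cs e := rel_le _ _
  have := lt_card_As H hx hxA
  omega

theorem bprime (H : Hyp G m n) {x : G} (hx : cs x = n) (hxA : x ∈ As G m) (hmex : ∃ y : G, cs y = m) {g : G} (hg : (cs g).Coprime n) :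
    cs g = m ∨ g ∈ center G := by
  have hcop : (cs g).Coprime (cs x) := by rw [hx]; exact hg
  rcases lt_or_eq_of_le (H.top (g * x)) with hlt | heq
  · right
    have h1 : cs (g * x) = n := le_antisymm (H.sec _ hlt) (by rw [← hx]; exact cs_ge_right hcop)
    let K : Subgroup G := MulAction.stabilizer G (cl x)
    have hK : ∀ k ∈ K, ∀ s ∈ cl x, k * s ∈ cl x := by
      intro k hk s hs
      have h2 : k • cl x = cl x := hk
      rw [← h2]
      exact Set.smul_mem_smul_set hs
    have hK1 : Nat.card K ∣ n := by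
      rw [← hx, ← ncard_cl]; exact card_dvd_of_stable K _ hK
    have hclA : ∀ w ∈ cl x, w ∈ As G m := by
      intro w hw
      obtain ⟨g, rfl⟩ := isConj_iff.mp hw
      exact As_normal.conj_mem x hxA g
    have hK2 : K ≤ As G m := by
      intro k hk
      have h2 := hclA _ (hK k hk x (mem_cl.mpr (IsConj.refl x)))
      have h3 := mul_mem h2 (inv_mem hxA)
      rwa [mul_inv_cancel_right] at h3
    have hK3 : Nat.card K ∣ m := by
      refine (card_dvd_of_le (hK2.trans As_le_Rs)).trans ?_
      obtain ⟨y, hy⟩ := hmex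
      exact card_Rs_dvd hy
    have hK4 : K = ⊥ := by
      rw [← card_eq_one]
      exact Nat.eq_one_of_dvd_coprimes H.cop hK3 hK1
    have hsm : ∀ h : G, (h * g * h⁻¹) • cl x = cl (g * x) := by
      intro h
      apply Set.eq_of_subset_of_ncard_le _ _ (Set.toFinite _)
      · rintro _ ⟨w, hw, rfl⟩
        obtain ⟨k, rfl⟩ := isConj_iff.mp hw
        exact conj_mul hcop h k
      · rw [ncard_cl, h1, Set.ncard_smul_set, ncard_cl, hx]
    rw [mem_center_iff]
    intro h
    have h2 : g⁻¹ * (h * g * h⁻¹) ∈ K := by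
      show (g⁻¹ * (h * g * h⁻¹)) • cl x = cl x
      rw [mul_smul, hsm h, ← hsm 1, smul_smul]
      simp
    rw [hK4, mem_bot] at h2
    have h3 : h * g * h⁻¹ = g := (inv_mul_eq_one.mp h2).symm
    calc h * g = (h * g * h⁻¹) * h := by group
      _ = g * h := by rw [h3]
  · left
    have h1 : IsConj (g * x) (x * g) := isConj_iff.mpr ⟨x, by group⟩
    have h2 : cs (x * g) = m := by rw [← cs_eq h1, heq]
    have h3 := (inv_mem (As_le_Rs hxA)) (x * g) h2
    rw [inv_mul_cancel_left] at h3
    rw [cs_eq h3, h2]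

theorem not_center_of (H : Hyp G m n) {w : G} (hw : cs w = m) : w ∉ center G := by
  intro h
  rw [← cs_center, hw] at h
  have := H.one
  have := H.lt
  omega

theorem unify (H : Hyp G m n) {x : G} (hx : cs x = n) (hxA : x ∈ As G m) {w d : G} (hw : cs w = m)
    (hd : d ∉ center G) (hdw : d * w = w * d) (hcop : (orderOf d).Coprime (orderOf w)) :
    cs d = m ∧ centralizer ({d} : Set G) = centralizer ({w} : Set G) := by
  have h1 := cent_mul_of_coprime hdw hcop
  have h2 : centralizer ({d * w} : Set G) ≤ centralizer ({w} : Set G) := by rw [h1]; exact inf_le_right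
  have h3 : cs w ∣ cs (d * w) := cs_dvd h2
  have h4 : cs (d * w) = cs w := le_antisymm (by rw [hw]; exact H.top _) (Nat.le_of_dvd (cs_pos _) h3)
  have h5 := cent_eq h2 h4.symm
  have h6 : centralizer ({w} : Set G) ≤ centralizer ({d} : Set G) := by
    rw [← h5, h1]; exact inf_le_left
  have h7 : cs d ∣ m := by rw [← hw]; exact cs_dvd h6
  rcases bprime H hx hxA ⟨w, hw⟩ (Nat.Coprime.coprime_dvd_left h7 H.cop) with h8 | h8
  · exact ⟨h8, (cent_eq h6 (by rw [h8, hw])).symm⟩
  · exact absurd h8 hd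

theorem pow_class (H : Hyp G m n) {x : G} (hx : cs x = n) (hxA : x ∈ As G m) {w : G} (hw : cs w = m) {k : ℕ}
    (hk : w ^ k ∉ center G) : cs (w ^ k) = m ∧ centralizer ({w ^ k} : Set G) = centralizer ({w} : Set G) := by
  have h6 := cent_pow_le w k
  have h7 : cs (w ^ k) ∣ m := by rw [← hw]; exact cs_dvd h6
  rcases bprime H hx hxA ⟨w, hw⟩ (Nat.Coprime.coprime_dvd_left h7 H.cop) with h8 | h8
  · exact ⟨h8, (cent_eq h6 (by rw [h8, hw])).symm⟩
  · exact absurd h8 hk

/-- Every centralizer of order `|G| / m` is the centralizer of a `p`-element with `p ∣ n`. -/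
theorem nf (H : Hyp G m n) {x : G} (hx : cs x = n) (hxA : x ∈ As G m) {w : G} (hw : cs w = m) :
    ∃ (w' : G) (p i : ℕ), p.Prime ∧ p ∣ n ∧ cs w' = m ∧ centralizer ({w'} : Set G) = centralizer ({w} : Set G) ∧
      orderOf w' = p ^ i := by
  obtain ⟨q, k, j, hq, hk, hj⟩ := prim (not_center_of H hw)
  obtain ⟨h1, h2⟩ := pow_class H hx hxA hw hk
  by_cases hqn : q ∣ n
  · exact ⟨w ^ k, q, j, hq, hqn, h1, h2, hj⟩
  · obtain ⟨p, hp, hpn⟩ := Nat.exists_prime_and_dvd (show n ≠ 1 by have := H.one; omega)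
    haveI : Fact p.Prime := ⟨hp⟩
    have hpq : p ≠ q := by rintro rfl; exact hqn hpn
    have hpm : ¬ p ∣ m := fun h => hp.one_lt.ne' (Nat.eq_one_of_dvd_coprimes H.cop h hpn)
    obtain ⟨P, -, hP⟩ := CfsgLib.H6.exists_sylow_le_of_not_dvd_index p (centralizer ({w ^ k} : Set G))
      (by rw [show (centralizer ({w ^ k} : Set G)).index = m from h1]; exact hpm) ⊥ (IsPGroup.of_bot) bot_le
    have hPZ : ¬ (P : Subgroup G) ≤ center G := by
      intro h
      have h3 : (P : Subgroup G) ≤ centralizer ({x} : Set G) := by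
        intro g hg
        exact mc.mpr ((mem_center_iff.mp (h hg) x).symm)
      have h4 : n ∣ (P : Subgroup G).index := by
        rw [← hx]; exact index_dvd_of_le h3
      exact P.not_dvd_index (hpn.trans h4)
    obtain ⟨t, htP, ht⟩ := SetLike.not_le_iff_exists.mp hPZ
    obtain ⟨i, hi⟩ := (IsPGroup.iff_orderOf.mp P.2) ⟨t, htP⟩
    rw [Subgroup.orderOf_mk] at hi
    have h5 := unify H hx hxA h1 ht (mc.mp (hP htP)) (by
      rw [hi, hj]; exact Nat.Coprime.pow _ _ ((Nat.coprime_primes hp hq).mpr hpq))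
    exact ⟨t, p, i, hp, hpn, h5.1, h5.2.trans h2, hi⟩

theorem fix_Rs (H : Hyp G m n) {x : G} (hx : cs x = n) (hxA : x ∈ As G m) {w : G} (hw : cs w = m)
    {a : G} (ha : a ∈ Rs G m) (haw : a * w = w * a) : a = 1 := by
  obtain ⟨w', p, i, hp, hpn, hw', hC, hi⟩ := nf H hx hxA hw
  have h1 : a * w' = w' * a := by rw [← mc, hC, mc]; exact haw
  have h2 : orderOf a ∣ m := (orderOf_mk a ha ▸ orderOf_dvd_natCard (⟨a, ha⟩ : Rs G m)).trans (card_Rs_dvd hw)
  have h3 : (orderOf a).Coprime (orderOf w') := by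
    rw [hi]
    exact Nat.Coprime.pow_right _ (Nat.Coprime.coprime_dvd_left h2 (Nat.Coprime.coprime_dvd_right hpn H.cop))
  have h4 : orderOf (a * w') = orderOf a * orderOf w' := (show Commute a w' from h1).orderOf_mul_eq_mul_orderOf_of_coprime h3
  obtain ⟨g, hg⟩ := isConj_iff.mp (ha w' hw')
  have h5 : orderOf (a * w') = orderOf w' := by
    conv_rhs => rw [← hg]
    exact (MulEquiv.orderOf_eq (MulAut.conj g) (a * w')).symm
  rw [h5] at h4
  have h6 : orderOf a = 1 := by
    have := orderOf_pos w'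
    exact (Nat.eq_of_mul_eq_mul_right this (by rw [one_mul]; exact h4)).symm
  exact orderOf_eq_one_iff.mp h6

theorem meet (H : Hyp G m n) {x : G} (hx : cs x = n) (hxA : x ∈ As G m) {x' y' : G} (hx' : cs x' = n) (hy' : cs y' = m)
    {d : G} (hdx : d * x' = x' * d) (hdy : d * y' = y' * d) : d ∈ center G := by
  by_contra hd
  obtain ⟨z, hz, a, ha, rfl⟩ := dec H hy' (cs_n H hx')
  have hCa := cent_center_mul hz a
  have hca : cs a = n := by rw [← cs_congr hCa, hx']
  have ha1 : a ≠ 1 := by
    rintro rfl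
    have h4 : cs (1 : G) = 1 := cs_center.mpr (one_mem _)
    have := H.one
    omega
  have hda : d * a = a * d := by rw [← mc, ← hCa, mc]; exact hdx
  obtain ⟨r, k, i, hr, hk, hi⟩ := prim hd
  set d' := d ^ k with hd'
  have hda' : d' * a = a * d' := ((show Commute d a from hda).pow_left k).eq
  have hdy' : d' * y' = y' * d' := ((show Commute d y' from hdy).pow_left k).eq
  obtain ⟨w, p, j, hp, hpn, hw, hC, hj⟩ := nf H hx hxA hy'
  have hdw : d' * w = w * d' := by rw [← mc, hC, mc]; exact hdy'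
  by_cases hrp : r = p
  · subst hrp
    have h2 : orderOf a ∣ m := (orderOf_mk a (As_le_Rs ha) ▸ orderOf_dvd_natCard (⟨a, As_le_Rs ha⟩ : Rs G m)).trans (card_Rs_dvd hy')
    have h3 : (orderOf d').Coprime (orderOf a) := by
      rw [hi]
      exact (Nat.Coprime.pow_right _ (Nat.Coprime.coprime_dvd_left h2 (Nat.Coprime.coprime_dvd_right hpn H.cop))).symm
    have h4 := cent_mul_of_coprime hda' h3
    have h5 : centralizer ({d' * a} : Set G) ≤ centralizer ({a} : Set G) := by rw [h4]; exact inf_le_right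
    have h6 : cs (d' * a) ≠ m := by
      intro h
      exact ha1 (fix_Rs H hx hxA h (As_le_Rs ha) (by rw [← mul_assoc, ← hda', mul_assoc]))
    have h7 : cs (d' * a) = n := by
      apply le_antisymm (H.sec _ (lt_of_le_of_ne (H.top _) h6))
      rw [← hca]
      exact Nat.le_of_dvd (cs_pos _) (cs_dvd h5)
    have h8 := cent_eq h5 (by rw [h7, hca])
    have h9 : centralizer ({a} : Set G) ≤ centralizer ({d'} : Set G) := by
      rw [← h8, h4]; exact inf_le_left
    have h10 : cs d' ∣ n := by rw [← hca]; exact cs_dvd h9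
    obtain ⟨z', hz', c, hc, hdc⟩ := dec H hy' (Nat.Coprime.coprime_dvd_left h10 H.cop.symm)
    have h11 : c * y' = y' * c := by
      have h12 : centralizer ({y'} : Set G) ≤ ⊤ := le_top
      have h13 : c = z'⁻¹ * d' := by rw [hdc]; group
      rw [h13]
      have h14 : Commute z'⁻¹ y' := (show Commute z' y' from (mem_center_iff.mp hz' y').symm).inv_left
      exact (h14.mul_left (show Commute d' y' from hdy')).eq
    have h12 := fix_Rs H hx hxA hy' (As_le_Rs hc) h11
    rw [h12, mul_one] at hdc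
    exact hk (by rw [hdc]; exact hz')
  · have h1 := (unify H hx hxA hw hk hdw (by
      rw [hi, hj]; exact Nat.Coprime.pow _ _ ((Nat.coprime_primes hr hp).mpr hrp))).2
    have h2 : a * y' = y' * a := by rw [← mc, ← hC, ← h1, mc]; exact hda'.symm
    exact ha1 (fix_Rs H hx hxA hy' (As_le_Rs ha) h2)

end CfsgLib.H2JH
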