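import Cfsg.Agent.LibH2JH2

set_option autoImplicit false
open Subgroup
open scoped Pointwise
namespace CfsgLib.H2JH

section aut
variable {A : Type*} [CommGroup A] {p : ℕ}

def Nm (φ : MulAut A) (p : ℕ) (a : A) : A := ∏ k ∈ Finset.range p, (φ ^ k) a

theorem Nm_fixed {φ : MulAut A} (h : φ ^ p = 1) (a : A) : φ (Nm φ p a) = Nm φ p a := by
  have h1 : φ (Nm φ p a) = ∏ k ∈ Finset.range p, (φ ^ (k + 1)) a := by
    rw [Nm, map_prod]
    refine Finset.prod_congr rfl (fun k _ => ?_)
    rw [pow_succ']; rfl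
  have h2 := Finset.prod_range_succ (fun k => (φ ^ k) a) p
  rw [Finset.prod_range_succ'] at h2
  rw [h1]
  simp only [pow_zero, h] at h2
  exact mul_right_cancel h2

theorem Nm_of_fix {φ : MulAut A} {a : A} (h : φ a = a) : Nm φ p a = a ^ p := by
  have h1 : ∀ k : ℕ, (φ ^ k) a = a := by
    intro k
    induction k with
    | zero => rfl
    | succ k ih => rw [pow_succ, MulAut.mul_apply, h, ih]
  rw [Nm, Finset.prod_congr rfl (fun k _ => h1 k), Finset.prod_const, Finset.card_range]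

theorem Nm_mul (φ : MulAut A) (a b : A) : Nm φ p (a * b) = Nm φ p a * Nm φ p b := by
  rw [Nm, Nm, Nm, ← Finset.prod_mul_distrib]
  exact Finset.prod_congr rfl (fun k _ => map_mul _ _ _)

def NmHom (φ : MulAut A) (p : ℕ) : A →* A :=
  MonoidHom.mk' (Nm φ p) (fun a b => Nm_mul φ a b)

theorem fix_of_pow (hp : p.Prime) {υ : MulAut A} (hυ : υ ^ p = 1) {k : ℕ} (hk : k.Coprime p) {a : A}
    (h : (υ ^ k) a = a) : υ a = a := by
  have h1 : orderOf υ ∣ p := orderOf_dvd_of_pow_eq_one hυ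
  obtain ⟨j, hj⟩ := exists_pow_eq_self_of_coprime (x := υ) (Nat.Coprime.coprime_dvd_right h1 hk)
  have h2 : ∀ j : ℕ, ((υ ^ k) ^ j) a = a := by
    intro j
    induction j with
    | zero => rfl
    | succ j ih => rw [pow_succ, MulAut.mul_apply, h, ih]
  conv_lhs => rw [← hj]
  exact h2 j

variable (hp : p.Prime) {ε υ : MulAut A} (hε : ε ^ p = 1) (hυ : υ ^ p = 1) (hc : Commute ε υ)
  (hfix : ∀ a, υ a = a → a = 1)
include hp hε hυ hc hfix

theorem prod_Nm (a : A) : ∏ j ∈ Finset.range p, Nm (ε * υ ^ j) p a = a ^ p := by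
  have h1 : ∀ j k : ℕ, ((ε * υ ^ j) ^ k) a = (ε ^ k) (((υ ^ k) ^ j) a) := by
    intro j k
    rw [(hc.pow_right j).mul_pow, ← pow_mul, ← pow_mul, mul_comm k j]; rfl
  have h2 : ∏ j ∈ Finset.range p, Nm (ε * υ ^ j) p a = ∏ k ∈ Finset.range p, (ε ^ k) (Nm (υ ^ k) p a) := by
    calc ∏ j ∈ Finset.range p, Nm (ε * υ ^ j) p a
        = ∏ j ∈ Finset.range p, ∏ k ∈ Finset.range p, (ε ^ k) (((υ ^ k) ^ j) a) :=
          Finset.prod_congr rfl (fun j _ => Finset.prod_congr rfl (fun k _ => h1 j k))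
      _ = ∏ k ∈ Finset.range p, ∏ j ∈ Finset.range p, (ε ^ k) (((υ ^ k) ^ j) a) := Finset.prod_comm
      _ = _ := Finset.prod_congr rfl (fun k _ => by rw [Nm, map_prod])
  rw [h2, Finset.prod_eq_single 0]
  · rw [pow_zero, pow_zero]
    exact Nm_of_fix rfl
  · intro k hk hk0
    have hk' : k.Coprime p := by
      rw [Nat.coprime_comm]
      exact (Nat.Prime.coprime_iff_not_dvd hp).mpr (fun h => by
        have := Nat.le_of_dvd (Nat.pos_of_ne_zero hk0) h
        have := Finset.mem_range.mp hk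
        omega)
    have h3 : (υ ^ k) ^ p = 1 := by rw [← pow_mul, mul_comm, pow_mul, hυ, one_pow]
    have h4 := fix_of_pow hp hυ hk' (Nm_fixed h3 a)
    rw [hfix _ h4, map_one]
  · intro h
    exact absurd (Finset.mem_range.mpr hp.pos) h

theorem Nm_other {i j : ℕ} (hi : i < p) (hj : j < p) (hij : i ≠ j) {a : A} (ha : (ε * υ ^ j) a = a) :
    Nm (ε * υ ^ i) p a = 1 := by
  set c := Nm (ε * υ ^ i) p a with hcdef
  have hpi : (ε * υ ^ i) ^ p = 1 := by
    rw [(hc.pow_right i).mul_pow, hε, ← pow_mul, mul_comm i p, pow_mul, hυ, one_pow, one_mul]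
  have h1 : (ε * υ ^ i) c = c := Nm_fixed hpi a
  have hcomm : Commute (ε * υ ^ j) (ε * υ ^ i) := by
    apply Commute.mul_left
    · exact (Commute.refl ε).mul_right (hc.pow_right i)
    · exact ((hc.pow_right j).symm).mul_right ((Commute.refl υ).pow_pow j i)
  have h2 : (ε * υ ^ j) c = c := by
    rw [hcdef, Nm, map_prod]
    refine Finset.prod_congr rfl (fun k _ => ?_)
    have h3 := (hcomm.pow_right k).eq
    have h4 : (ε * υ ^ j) (((ε * υ ^ i) ^ k) a) = ((ε * υ ^ i) ^ k) ((ε * υ ^ j) a) := DFunLike.congr_fun h3 a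
    rw [ha] at h4
    exact h4
  have h3 : (υ ^ i) c = (υ ^ j) c := by
    apply ε.injective
    exact h1.trans h2.symm
  have key : ∀ {i j : ℕ}, i < j → j < p → (υ ^ i) c = (υ ^ j) c → c = 1 := by
    intro i j hij hj h
    have h4 : υ ^ j = υ ^ i * υ ^ (j - i) := by rw [← pow_add]; congr 1; omega
    rw [h4, MulAut.mul_apply] at h
    have h5 := ((υ ^ i).injective h).symm
    refine hfix c (fix_of_pow hp hυ ?_ h5)
    rw [Nat.coprime_comm]
    exact (Nat.Prime.coprime_iff_not_dvd hp).mpr (fun h => by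
      have := Nat.le_of_dvd (by omega) h
      omega)
  rcases lt_or_gt_of_ne hij with h | h
  · exact key h hj h3
  · exact key h hi h3.symm

theorem card_prod_le [Finite A] (hcop : (Nat.card A).Coprime p) :
    ∏ j : Fin p, Nat.card (MonoidHom.eqLocus ((ε * υ ^ (j : ℕ) : MulAut A) : A →* A) (MonoidHom.id A)) ≤ Nat.card A := by
  classical
  rw [← Nat.card_pi]
  refine Nat.card_le_card_of_injective (fun f => ∏ j : Fin p, ((f j : A))) ?_
  intro f g hfg
  have hfg' : ∏ j : Fin p, ((f j : A)) = ∏ j : Fin p, ((g j : A)) := hfg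
  have key : ∀ (f : (j : Fin p) → (MonoidHom.eqLocus ((ε * υ ^ (j : ℕ) : MulAut A) : A →* A) (MonoidHom.id A))) (i : Fin p),
      Nm (ε * υ ^ (i : ℕ)) p (∏ j : Fin p, ((f j : A))) = (f i : A) ^ p := by
    intro f i
    have h1 : Nm (ε * υ ^ (i : ℕ)) p (∏ j : Fin p, ((f j : A))) = ∏ j : Fin p, Nm (ε * υ ^ (i : ℕ)) p (f j) :=
      map_prod (NmHom (ε * υ ^ (i : ℕ)) p) _ _
    rw [h1, Finset.prod_eq_single i]
    · exact Nm_of_fix (f i).2
    · intro j _ hj
      exact Nm_other hp hε hυ hc hfix i.2 j.2 (fun h => hj (Fin.ext h.symm)) (f j).2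
    · intro h
      exact absurd (Finset.mem_univ i) h
  funext i
  apply Subtype.ext
  have h1 := key f i
  rw [hfg', key g i] at h1
  exact ((powCoprime hcop).injective h1).symm

end aut

variable {G : Type*} [Group G] [Finite G] {m n : ℕ}

theorem orderOf_dvd_of_mem_Rs {y : G} (hy : cs y = m) {a : G} (ha : a ∈ Rs G m) : orderOf a ∣ m :=
  (orderOf_mk a ha ▸ orderOf_dvd_natCard (⟨a, ha⟩ : Rs G m)).trans (card_Rs_dvd hy)

/-- The basic inequality. -/
theorem ineq (H : Hyp G m n) {x : G} (hx : cs x = n) (hxA : x ∈ As G m) {y : G} (hy : cs y = m) {p : ℕ} (hp : p.Prime) (hpn : p ∣ n)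
    {e : G} (hoe : ∃ i, orderOf e = p ^ i) {b : G} (hb : b ∈ As G m) (hb1 : b ≠ 1) (hbe : b * e = e * b)
    {a : G} (ha : a ∈ As G m) (hae : a * e = e * a) :
    cs a * Nat.card (As G m) ≤ n * Nat.card ↥(As G m ⊓ centralizer ({e} : Set G)) := by
  have he : cs e ≠ m := fun h => hb1 (fix_Rs H hx hxA h (As_le_Rs hb) hbe)
  have h1 : cs (a * e) ≤ n := by
    apply H.sec _ (lt_of_le_of_ne (H.top _) _)
    intro h
    have h2 := fix_Rs H hx hxA h (As_le_Rs ha) (by rw [mul_assoc, hae])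
    rw [h2, one_mul] at h
    exact he h
  obtain ⟨i, hi⟩ := hoe
  have h2 : (orderOf a).Coprime (orderOf e) := by
    rw [hi]
    exact Nat.Coprime.pow_right _ (Nat.Coprime.coprime_dvd_left (orderOf_dvd_of_mem_Rs hy (As_le_Rs ha))
      (Nat.Coprime.coprime_dvd_right hpn H.cop))
  have h3 := cent_mul_of_coprime hae h2
  have h4 : (centralizer ({a} : Set G) ⊓ centralizer ({e} : Set G)).index = cs (a * e) := by
    rw [← h3]; rfl
  have h5 := relIndex_mul_index (inf_le_left : centralizer ({a} : Set G) ⊓ centralizer ({e} : Set G) ≤ centralizer ({a} : Set G))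
  rw [inf_relIndex_left, h4] at h5
  have hAC : As G m ≤ centralizer ({a} : Set G) := fun c hc => mc.mpr (As_comm hc ha)
  have h6 : (centralizer ({e} : Set G)).relIndex (As G m) ≤ (centralizer ({e} : Set G)).relIndex (centralizer ({a} : Set G)) :=
    relIndex_le_of_le_right hAC (index_ne_zero_of_finite (H := (centralizer ({e} : Set G)).subgroupOf (centralizer ({a} : Set G))))
  have h7 := rel_card (As G m) (centralizer ({e} : Set G))
  calc cs a * Nat.card (As G m)
      = cs a * ((centralizer ({e} : Set G)).relIndex (As G m) * Nat.card ↥(As G m ⊓ centralizer ({e} : Set G))) := by rw [h7]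
    _ ≤ cs a * ((centralizer ({e} : Set G)).relIndex (centralizer ({a} : Set G)) * Nat.card ↥(As G m ⊓ centralizer ({e} : Set G))) :=
        Nat.mul_le_mul_left _ (Nat.mul_le_mul_right _ h6)
    _ = ((centralizer ({e} : Set G)).relIndex (centralizer ({a} : Set G)) * cs a) * Nat.card ↥(As G m ⊓ centralizer ({e} : Set G)) := by ring
    _ = cs (a * e) * Nat.card ↥(As G m ⊓ centralizer ({e} : Set G)) := by rw [show cs a = (centralizer ({a} : Set G)).index from rfl, h5]
    _ ≤ _ := Nat.mul_le_mul_right _ h1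

end CfsgLib.H2JH
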