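import Cfsg.Agent.LibH2JH3

set_option autoImplicit false
open Subgroup
open scoped Pointwise
namespace CfsgLib.H2JH

variable {G : Type*} [Group G] [Finite G] {m n : ℕ}

theorem comm_of_pow {p : ℕ} {g a : G} (h : g * a ^ p = a ^ p * g) (hcop : p.Coprime (orderOf a)) : g * a = a * g := by
  obtain ⟨k, hk⟩ := exists_pow_eq_self_of_coprime hcop
  have h1 : Commute g (a ^ p) := h
  have h2 := h1.pow_right k
  rw [hk] at h2
  exact h2

theorem orderOf_mul_prime_pow {p : ℕ} (hp : p.Prime) {a b : G} (hab : a * b = b * a) (ha : ∃ i, orderOf a = p ^ i)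
    (hb : ∃ i, orderOf b = p ^ i) (k : ℕ) : ∃ i, orderOf (a * b ^ k) = p ^ i := by
  obtain ⟨i, hi⟩ := ha
  obtain ⟨j, hj⟩ := hb
  have hc : Commute a (b ^ k) := (show Commute a b from hab).pow_right k
  have h1 : (a * b ^ k) ^ (p ^ (i + j)) = 1 := by
    rw [hc.mul_pow, ← pow_mul, pow_add, pow_mul, ← hi, pow_orderOf_eq_one, one_pow, one_mul, ← hj,
      show k * (orderOf a * orderOf b) = orderOf b * (k * orderOf a) by ring, pow_mul, pow_orderOf_eq_one, one_pow]
  obtain ⟨t, -, ht⟩ := (Nat.dvd_prime_pow hp).mp (orderOf_dvd_of_pow_eq_one h1)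
  exact ⟨t, ht⟩

theorem count (H : Hyp G m n) {x : G} (hx : cs x = n) (hxA : x ∈ As G m) {y : G} (hy : cs y = m) {p : ℕ}
    (hp : p.Prime) (hpn : p ∣ n) {e : G} (hey : e * y = y * e) (he : cs e ≤ n) (hep : e ^ p ∈ center G)
    (hyp : y ^ p ∈ center G) (hoe : ∃ i, orderOf e = p ^ i) (hoy : ∃ i, orderOf y = p ^ i) : e ∈ center G := by
  classical
  letI : CommGroup (As G m) := { (inferInstance : Group (As G m)) with mul_comm := fun a b => Subtype.ext (As_comm a.2 b.2) }
  let ε : MulAut (As G m) := MulAut.conjNormal e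
  let υ : MulAut (As G m) := MulAut.conjNormal y
  have hcen : ∀ z ∈ center G, (MulAut.conjNormal z : MulAut (As G m)) = 1 := by
    intro z hz
    refine MulEquiv.ext (fun a => Subtype.ext ?_)
    show z * (a : G) * z⁻¹ = a
    rw [← mem_center_iff.mp hz a, mul_inv_cancel_right]
  have hε : ε ^ p = 1 := by
    show (MulAut.conjNormal e : MulAut (As G m)) ^ p = 1
    rw [← map_pow]; exact hcen _ hep
  have hυ : υ ^ p = 1 := by
    show (MulAut.conjNormal y : MulAut (As G m)) ^ p = 1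
    rw [← map_pow]; exact hcen _ hyp
  have hc : Commute ε υ := by
    show (MulAut.conjNormal e : MulAut (As G m)) * MulAut.conjNormal y = MulAut.conjNormal y * MulAut.conjNormal e
    rw [← map_mul, hey, map_mul]
  have hconj : ∀ (g : G) (a : As G m), (MulAut.conjNormal g : MulAut (As G m)) a = a ↔ (a : G) * g = g * a := by
    intro g a
    rw [Subtype.ext_iff, MulAut.conjNormal_apply, mul_inv_eq_iff_eq_mul]
    exact eq_comm
  have hfix : ∀ a, υ a = a → a = 1 := by
    intro a ha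
    exact Subtype.ext (fix_Rs H hx hxA hy (As_le_Rs a.2) ((hconj y a).mp ha))
  have hεj : ∀ j : ℕ, ε * υ ^ j = (MulAut.conjNormal (e * y ^ j) : MulAut (As G m)) := by
    intro j
    rw [map_mul, map_pow]
  have hcop : (Nat.card (As G m)).Coprime p :=
    Nat.Coprime.coprime_dvd_left (card_As_dvd hy) (Nat.Coprime.coprime_dvd_right hpn H.cop)
  let Cj : ℕ → Subgroup G := fun j => As G m ⊓ centralizer ({e * y ^ j} : Set G)
  have hcard : ∀ j : ℕ, Nat.card (MonoidHom.eqLocus ((ε * υ ^ j : MulAut (As G m)) : As G m →* As G m) (MonoidHom.id (As G m))) =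
      Nat.card (Cj j) := by
    intro j
    have h1 : (MonoidHom.eqLocus ((ε * υ ^ j : MulAut (As G m)) : As G m →* As G m) (MonoidHom.id (As G m))).map (As G m).subtype = Cj j := by
      ext g
      constructor
      · rintro ⟨a, ha, rfl⟩
        refine mem_inf.mpr ⟨a.2, mc.mpr ?_⟩
        have h2 : (ε * υ ^ j) a = a := ha
        rw [hεj] at h2
        exact (hconj _ a).mp h2
      · intro hg
        obtain ⟨hg1, hg2⟩ := mem_inf.mp hg
        refine ⟨⟨g, hg1⟩, ?_, rfl⟩
        show (ε * υ ^ j) (⟨g, hg1⟩ : As G m) = ⟨g, hg1⟩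
        rw [hεj]
        exact (hconj _ _).mpr (mc.mp hg2)
    rw [← h1, card_map_of_injective (As G m).subtype_injective]
  have hprod : ∏ j : Fin p, Nat.card (Cj j) ≤ Nat.card (As G m) := by
    have h1 := card_prod_le hp hε hυ hc hfix hcop
    exact le_of_eq_of_le (Finset.prod_congr rfl (fun j _ => (hcard j).symm)) h1
  let aj : ℕ → As G m := fun j => Nm (ε * υ ^ j) p ⟨x, hxA⟩
  have hpr : ∏ j : Fin p, aj j = (⟨x, hxA⟩ : As G m) ^ p := by
    rw [← Finset.prod_range]
    exact prod_Nm hp hε hυ hc hfix ⟨x, hxA⟩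
  have hpi : ∀ i, (ε * υ ^ i) ^ p = 1 := by
    intro i
    rw [(hc.pow_right i).mul_pow, hε, ← pow_mul, mul_comm i p, pow_mul, hυ, one_pow, one_mul]
  have haj : ∀ j, ((aj j : As G m) : G) ∈ Cj j := by
    intro j
    refine mem_inf.mpr ⟨(aj j).2, mc.mpr ?_⟩
    have h2 : (ε * υ ^ j) (aj j) = aj j := Nm_fixed (hpi j) _
    rw [hεj] at h2
    exact (hconj _ _).mp h2
  have hox : p.Coprime (orderOf x) := by
    rw [Nat.coprime_comm]
    exact Nat.Coprime.coprime_dvd_left (orderOf_dvd_of_mem_Rs hy (As_le_Rs hxA)) (Nat.Coprime.coprime_dvd_right hpn H.cop)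
  have hinf : (⨅ j : Fin p, centralizer ({((aj j : As G m) : G)} : Set G)) ≤ centralizer ({x} : Set G) := by
    intro g hg
    rw [mem_iInf] at hg
    rw [mc]
    apply comm_of_pow _ hox
    have h1 : ∏ j : Fin p, aj j ∈ (centralizer ({g} : Set G)).subgroupOf (As G m) :=
      prod_mem (fun j _ => mem_subgroupOf.mpr (mc.mpr (mc.mp (hg j)).symm))
    rw [hpr] at h1
    exact (mc.mp (mem_subgroupOf.mp h1)).symm
  have hn1 : n ≤ ∏ j : Fin p, cs ((aj j : As G m) : G) := by
    rw [← hx]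
    refine le_trans (Nat.le_of_dvd (Nat.pos_of_ne_zero index_ne_zero_of_finite) (index_dvd_of_le hinf)) ?_
    exact index_iInf_le _
  set J : Finset (Fin p) := Finset.univ.filter (fun j => Cj j ≠ ⊥) with hJ
  have hJ1 : ∀ j : Fin p, j ∉ J → Cj j = ⊥ := by
    intro j hj
    by_contra h
    exact hj (Finset.mem_filter.mpr ⟨Finset.mem_univ _, h⟩)
  have hn2 : n ≤ ∏ j ∈ J, cs ((aj j : As G m) : G) := by
    rw [Finset.prod_subset (Finset.subset_univ J)]
    · exact hn1
    · intro j _ hj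
      have h1 := haj j
      rw [hJ1 j hj, mem_bot] at h1
      rw [h1]
      exact cs_center.mpr (one_mem _)
  have hprod2 : ∏ j ∈ J, Nat.card (Cj j) ≤ Nat.card (As G m) := by
    rw [Finset.prod_subset (Finset.subset_univ J)]
    · exact hprod
    · intro j _ hj
      rw [hJ1 j hj, card_bot]
  have hineq : ∏ j ∈ J, (cs ((aj j : As G m) : G) * Nat.card (As G m)) ≤ ∏ j ∈ J, (n * Nat.card (Cj j)) := by
    refine Finset.prod_le_prod' (fun j hj => ?_)
    obtain ⟨b, hb, hb1⟩ := (bot_or_exists_ne_one (Cj j)).resolve_left (Finset.mem_filter.mp hj).2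
    have hb2 := mem_inf.mp hb
    have ha2 := mem_inf.mp (haj j)
    exact ineq H hx hxA hy hp hpn (orderOf_mul_prime_pow hp hey hoe hoy j) hb2.1 hb1 (mc.mp hb2.2) ha2.1 (mc.mp ha2.2)
  rw [Finset.prod_mul_distrib, Finset.prod_mul_distrib, Finset.prod_const, Finset.prod_const] at hineq
  have hA := lt_card_As H hx hxA
  have hineq2 : n * Nat.card (As G m) ^ J.card ≤ n ^ J.card * Nat.card (As G m) :=
    (Nat.mul_le_mul_right _ hn2).trans (hineq.trans (Nat.mul_le_mul_left _ hprod2))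
  have hn0 : 0 < n := by have := H.one; omega
  have hJcard : J.card ≤ 1 := by
    by_contra hcon
    push Not at hcon
    obtain ⟨t, ht⟩ : ∃ t, J.card = t + 1 := ⟨J.card - 1, by omega⟩
    rw [ht, pow_succ, pow_succ] at hineq2
    have h1 : (n * Nat.card (As G m)) * Nat.card (As G m) ^ t ≤ (n * Nat.card (As G m)) * n ^ t := by
      calc (n * Nat.card (As G m)) * Nat.card (As G m) ^ t = n * (Nat.card (As G m) ^ t * Nat.card (As G m)) := by ring
        _ ≤ n ^ t * n * Nat.card (As G m) := hineq2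
        _ = _ := by ring
    have h2 := Nat.le_of_mul_le_mul_left h1 (Nat.mul_pos hn0 (by omega))
    have h3 : n ^ t < Nat.card (As G m) ^ t := Nat.pow_lt_pow_left hA (by omega)
    omega
  have hp0 : 0 < p := hp.pos
  have h0J : (⟨0, hp0⟩ : Fin p) ∈ J := by
    rw [hJ, Finset.mem_filter]
    refine ⟨Finset.mem_univ _, ?_⟩
    obtain ⟨b, hb, hb1, hbe⟩ := exists_comm H hx hxA he
    intro h
    have h1 : b ∈ Cj 0 := mem_inf.mpr ⟨hb, mc.mpr (by rw [pow_zero, mul_one]; exact hbe)⟩
    have h2 : Cj 0 = ⊥ := h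
    rw [h2, mem_bot] at h1
    exact hb1 h1
  have haj1 : ∀ j : Fin p, j ≠ ⟨0, hp0⟩ → aj j = 1 := by
    intro j hj
    have h1 : j ∉ J := fun h => hj (Finset.card_le_one.mp hJcard j h _ h0J)
    have h2 := haj j
    rw [hJ1 j h1, mem_bot] at h2
    exact Subtype.ext h2
  have hxp : aj 0 = (⟨x, hxA⟩ : As G m) ^ p := by
    rw [← hpr, Finset.prod_eq_single (⟨0, hp0⟩ : Fin p)]
    · intro j _ hj; exact haj1 j hj
    · intro h; exact absurd (Finset.mem_univ _) h
  have h1 := mc.mp (mem_inf.mp (haj 0)).2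
  rw [hxp, pow_zero, mul_one] at h1
  have h2 : e * x = x * e := comm_of_pow (show e * x ^ p = x ^ p * e from h1.symm) hox
  exact meet H hx hxA hx hy h2 hey

end CfsgLib.H2JH
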