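import Cfsg.Agent.LibH2JH4

set_option autoImplicit false
open Subgroup
open scoped Pointwise
namespace CfsgLib.H2JH

variable {G : Type*} [Group G] [Finite G] {m n : ℕ}

theorem red {u : G} (hu : u ∉ center G) {p i : ℕ} (ho : orderOf u = p ^ i) :
    ∃ s, u ^ (p ^ s) ∉ center G ∧ (u ^ (p ^ s)) ^ p ∈ center G := by
  classical
  have hex : ∃ s, u ^ (p ^ s) ∈ center G := ⟨i, by rw [← ho, pow_orderOf_eq_one]; exact one_mem _⟩
  have h0 : Nat.find hex ≠ 0 := by
    intro h
    have h1 := Nat.find_spec hex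
    rw [h, pow_zero, pow_one] at h1
    exact hu h1
  refine ⟨Nat.find hex - 1, Nat.find_min hex (by omega), ?_⟩
  rw [← pow_mul, ← pow_succ, Nat.sub_add_cancel (Nat.pos_of_ne_zero h0)]
  exact Nat.find_spec hex

theorem orderOf_pow_prime_pow {p : ℕ} (hp : p.Prime) {a : G} {i : ℕ} (ha : orderOf a = p ^ i) (k : ℕ) :
    ∃ j, orderOf (a ^ k) = p ^ j := by
  have h1 : orderOf (a ^ k) ∣ p ^ i := by rw [← ha]; exact orderOf_pow_dvd k
  obtain ⟨j, -, hj⟩ := (Nat.dvd_prime_pow hp).mp h1
  exact ⟨j, hj⟩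

theorem prop7 (H : Hyp G m n) {x : G} (hx : cs x = n) (hxA : x ∈ As G m) {y : G} (hy : cs y = m) {e : G}
    (hey : e * y = y * e) (he : e ∉ center G) : cs e = m := by
  by_contra hne
  have hen : cs e ≤ n := H.sec _ (lt_of_le_of_ne (H.top _) hne)
  obtain ⟨q, k, j, hq, hk, hj⟩ := prim he
  obtain ⟨w, p, i, hp, hpn, hw, hC, hi⟩ := nf H hx hxA hy
  have hle : ∀ (u : G) (k : ℕ), cs (u ^ k) ≤ cs u := fun u k => Nat.le_of_dvd (cs_pos _) (cs_dvd (cent_pow_le u k))
  have hew : e * w = w * e := by rw [← mc, hC, mc]; exact hey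
  have hew' : e ^ k * w = w * e ^ k := ((show Commute e w from hew).pow_left k).eq
  by_cases hqp : q = p
  · subst hqp
    obtain ⟨s, hs1, hs2⟩ := red hk hj
    obtain ⟨t, ht1, ht2⟩ := red (not_center_of H hw) hi
    obtain ⟨h1, h2⟩ := pow_class H hx hxA hw ht1
    have h3 := ((show Commute (e ^ k) w from hew').pow_pow (q ^ s) (q ^ t)).eq
    exact hs1 (count H hx hxA h1 hq hpn h3 ((hle _ _).trans ((hle _ _).trans hen)) hs2 ht2
      (orderOf_pow_prime_pow hq hj _) (orderOf_pow_prime_pow hq hi _))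
  · have h1 := (unify H hx hxA hw hk hew' (by
      rw [hi, hj]; exact Nat.Coprime.pow _ _ ((Nat.coprime_primes hq hp).mpr hqp))).1
    have h2 := (hle e k).trans hen
    have := H.lt
    omega

theorem not_center_x (H : Hyp G m n) {x : G} (hx : cs x = n) : x ∉ center G := by
  intro h
  rw [← cs_center, hx] at h
  have := H.one
  omega

theorem center_le_cent (v : G) : center G ≤ centralizer ({v} : Set G) := by
  intro z hz
  exact mc.mpr (mem_center_iff.mp hz v).symm

theorem card_cx (H : Hyp G m n) {x : G} (hx : cs x = n) (hxA : x ∈ As G m) {y : G} (hy : cs y = m) :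
    Nat.card (centralizer ({x} : Set G)) = m * Nat.card (center G) := by
  have h1 := rel_card (centralizer ({x} : Set G)) (centralizer ({y} : Set G))
  have h2 : centralizer ({x} : Set G) ⊓ centralizer ({y} : Set G) = center G := by
    apply le_antisymm
    · intro d hd
      obtain ⟨hd1, hd2⟩ := mem_inf.mp hd
      exact meet H hx hxA hx hy (mc.mp hd1) (mc.mp hd2)
    · exact le_inf (center_le_cent x) (center_le_cent y)
  have h3 : (centralizer ({y} : Set G)).relIndex (centralizer ({x} : Set G)) = m := by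
    apply le_antisymm
    · rw [← hy]; exact rel_le _ _
    · apply Nat.le_of_dvd
      · exact Nat.pos_of_ne_zero (index_ne_zero_of_finite (H := (centralizer ({y} : Set G)).subgroupOf (centralizer ({x} : Set G))))
      · have h5 := relIndex_mul_index (inf_le_left : centralizer ({x} : Set G) ⊓ centralizer ({y} : Set G) ≤ centralizer ({x} : Set G))
        rw [inf_relIndex_left] at h5
        have h6 : m ∣ (centralizer ({x} : Set G) ⊓ centralizer ({y} : Set G)).index := by
          rw [← hy]; exact index_dvd_of_le inf_le_right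
        rw [← h5, show (centralizer ({x} : Set G)).index = n from hx] at h6
        exact Nat.Coprime.dvd_of_dvd_mul_right H.cop h6
  rw [h2, h3] at h1
  exact h1.symm

theorem prop8 (H : Hyp G m n) {x : G} (hx : cs x = n) (hxA : x ∈ As G m) {y : G} (hy : cs y = m) {v : G}
    (hvx : v * x = x * v) (hv : v ∉ center G) : cs v = n := by
  have h1 : cs v ≠ m := by
    intro h
    have h2 := prop7 H hx hxA h hvx.symm (not_center_x H hx)
    have := H.lt
    omega
  have h2 : cs v ≤ n := H.sec _ (lt_of_le_of_ne (H.top _) h1)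
  have h3 : centralizer ({v} : Set G) ⊓ centralizer ({y} : Set G) = center G := by
    apply le_antisymm
    · intro e he
      obtain ⟨he1, he2⟩ := mem_inf.mp he
      by_contra hec
      have h4 := prop7 H hx hxA hy (mc.mp he2) hec
      exact h1 (prop7 H hx hxA h4 (mc.mp he1).symm hv)
    · exact le_inf (center_le_cent v) (center_le_cent y)
  have h4 := rel_card (centralizer ({v} : Set G)) (centralizer ({y} : Set G))
  rw [h3] at h4
  have h5 : (centralizer ({y} : Set G)).relIndex (centralizer ({v} : Set G)) ≤ m := by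
    rw [← hy]; exact rel_le _ _
  have h6 : Nat.card (centralizer ({v} : Set G)) ≤ Nat.card (centralizer ({x} : Set G)) := by
    rw [card_cx H hx hxA hy, ← h4]
    exact Nat.mul_le_mul_right _ h5
  have h7 := (centralizer ({v} : Set G)).card_mul_index
  have h8 := (centralizer ({x} : Set G)).card_mul_index
  have h9 : Nat.card (centralizer ({x} : Set G)) * cs x ≤ Nat.card (centralizer ({x} : Set G)) * cs v := by
    calc Nat.card (centralizer ({x} : Set G)) * cs x = Nat.card G := h8
      _ = Nat.card (centralizer ({v} : Set G)) * cs v := h7.symm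
      _ ≤ _ := Nat.mul_le_mul_right _ h6
  have h10 := Nat.le_of_mul_le_mul_left h9 Nat.card_pos
  omega

theorem cx_dec (H : Hyp G m n) {x : G} (hx : cs x = n) (hxA : x ∈ As G m) {y : G} (hy : cs y = m) {v : G}
    (hvx : v * x = x * v) : ∃ z ∈ center G, ∃ c ∈ As G m, v = z * c := by
  by_cases hv : v ∈ center G
  · exact ⟨v, hv, 1, one_mem _, (mul_one v).symm⟩
  · exact dec H hy (cs_n H (prop8 H hx hxA hy hvx hv))

theorem cx_comm (H : Hyp G m n) {x : G} (hx : cs x = n) (hxA : x ∈ As G m) {y : G} (hy : cs y = m) {v w : G}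
    (hvx : v * x = x * v) (hwx : w * x = x * w) : v * w = w * v := by
  obtain ⟨z, hz, c, hc, rfl⟩ := cx_dec H hx hxA hy hvx
  obtain ⟨z', hz', c', hc', rfl⟩ := cx_dec H hx hxA hy hwx
  have h1 : Commute z (z' * c') := (mem_center_iff.mp hz _).symm
  have h2 : Commute c z' := mem_center_iff.mp hz' c
  have h3 : Commute c c' := As_comm hc hc'
  exact (h1.mul_left (h2.mul_right h3)).eq

theorem card_R (H : Hyp G m n) {x : G} (hx : cs x = n) (hxA : x ∈ As G m) {y : G} (hy : cs y = m) :
    Nat.card (Rs G m) = m := by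
  apply le_antisymm
  · exact Nat.le_of_dvd (by have := H.lt; omega) (card_Rs_dvd hy)
  · have h1 : Nat.card (centralizer ({x} : Set G)) ≤ Nat.card (center G × As G m) := by
      refine Nat.card_le_card_of_injective (β := center G × As G m)
        (fun v => (⟨(cx_dec H hx hxA hy (mc.mp v.2)).choose, (cx_dec H hx hxA hy (mc.mp v.2)).choose_spec.1⟩,
          ⟨(cx_dec H hx hxA hy (mc.mp v.2)).choose_spec.2.choose, (cx_dec H hx hxA hy (mc.mp v.2)).choose_spec.2.choose_spec.1⟩)) ?_
      intro v w hvw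
      have h2 := (cx_dec H hx hxA hy (mc.mp v.2)).choose_spec.2.choose_spec.2
      have h3 := (cx_dec H hx hxA hy (mc.mp w.2)).choose_spec.2.choose_spec.2
      have h4 := congrArg (fun p : center G × As G m => ((p.1 : G)) * (p.2 : G)) hvw
      apply Subtype.ext
      rw [h2, h3]
      exact h4
    rw [card_cx H hx hxA hy, Nat.card_prod, mul_comm] at h1
    exact (Nat.le_of_mul_le_mul_left h1 Nat.card_pos).trans (card_le_of_le As_le_Rs)

theorem rconj (H : Hyp G m n) {x : G} (hx : cs x = n) (hxA : x ∈ As G m) {e : G} (he : cs e = m) (g : G) :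
    ∃ r ∈ Rs G m, g * e * g⁻¹ = r * e * r⁻¹ := by
  have h1 : (fun r => r * e * r⁻¹) '' (Rs G m : Set G) = cl e := by
    apply Set.eq_of_subset_of_ncard_le _ _ (Set.toFinite _)
    · rintro _ ⟨r, _, rfl⟩
      exact isConj_iff.mpr ⟨r, rfl⟩
    · rw [Set.ncard_image_of_injOn, ncard_cl, he, ← Nat.card_coe_set_eq]
      · exact (card_R H hx hxA he).ge
      · intro r hr s hs hrs
        have hrs' : r * e * r⁻¹ = s * e * s⁻¹ := hrs
        have h2 : s⁻¹ * r * e = e * (s⁻¹ * r) := by
          calc s⁻¹ * r * e = s⁻¹ * (r * e * r⁻¹) * r := by group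
            _ = s⁻¹ * (s * e * s⁻¹) * r := by rw [hrs']
            _ = _ := by group
        have h3 := fix_Rs H hx hxA he (mul_mem (inv_mem hs) hr) h2
        exact (inv_mul_eq_one.mp h3).symm
  have h2 : g * e * g⁻¹ ∈ cl e := isConj_iff.mpr ⟨g, rfl⟩
  rw [← h1] at h2
  obtain ⟨r, hr, hr2⟩ := h2
  exact ⟨r, hr, hr2.symm⟩

theorem cy_comm (H : Hyp G m n) {x : G} (hx : cs x = n) (hxA : x ∈ As G m) {y : G} (hy : cs y = m) {e c : G}
    (hey : e * y = y * e) (hcy : c * y = y * c) : e * c = c * e := by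
  by_cases he : e ∈ center G
  · exact (mem_center_iff.mp he c).symm
  have h1 := prop7 H hx hxA hy hey he
  obtain ⟨r, hr, hr2⟩ := rconj H hx hxA h1 c
  have h2 : c * e * c⁻¹ * e⁻¹ ∈ Rs G m := by
    rw [hr2]
    have h3 := Rs_normal.conj_mem r⁻¹ (inv_mem hr) e
    have h4 : r * e * r⁻¹ * e⁻¹ = r * (e * r⁻¹ * e⁻¹) := by group
    rw [h4]; exact mul_mem hr h3
  have h3 : c * e * c⁻¹ * e⁻¹ ∈ centralizer ({y} : Set G) :=
    mul_mem (mul_mem (mul_mem (mc.mpr hcy) (mc.mpr hey)) (inv_mem (mc.mpr hcy))) (inv_mem (mc.mpr hey))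
  have h4 := fix_Rs H hx hxA hy h2 (mc.mp h3)
  have h5 : c * e = e * c := by
    calc c * e = (c * e * c⁻¹ * e⁻¹) * (e * c) := by group
      _ = e * c := by rw [h4, one_mul]
  exact h5.symm

/-- Malnormality of `C(y)` modulo the center. -/
theorem maln (H : Hyp G m n) {x : G} (hx : cs x = n) (hxA : x ∈ As G m) {y : G} (hy : cs y = m) {g w : G}
    (hw : w * y = y * w) (hw2 : (g⁻¹ * w * g) * y = y * (g⁻¹ * w * g)) (hwz : w ∉ center G) : g * y = y * g := by
  have h1 := prop7 H hx hxA hy hw hwz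
  have hle : ∀ u : G, u * y = y * u → cs u = m → centralizer ({y} : Set G) = centralizer ({u} : Set G) := by
    intro u hu hum
    apply cent_eq _ (by rw [hum, hy])
    intro c hc
    exact mc.mpr (cy_comm H hx hxA hy (mc.mp hc) hu)
  have h2 := hle w hw h1
  have h3 : cs (g⁻¹ * w * g) = m := by
    rw [← h1]; exact cs_eq (isConj_iff.mpr ⟨g, by group⟩)
  have h4 := hle _ hw2 h3
  -- y commutes with g⁻¹ w g, so g y g⁻¹ commutes with w
  have h5 : g * y * g⁻¹ * w = w * (g * y * g⁻¹) := by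
    calc g * y * g⁻¹ * w = g * (y * (g⁻¹ * w * g)) * g⁻¹ := by group
      _ = g * ((g⁻¹ * w * g) * y) * g⁻¹ := by rw [hw2]
      _ = _ := by group
  have h6 : (g * y * g⁻¹) * y = y * (g * y * g⁻¹) := by rw [← mc, h2, mc]; exact h5
  obtain ⟨r, hr, hr2⟩ := rconj H hx hxA hy g
  rw [hr2] at h6
  have h7 : r * y * r⁻¹ * y⁻¹ ∈ Rs G m := by
    have h3 := Rs_normal.conj_mem r⁻¹ (inv_mem hr) y
    have h4 : r * y * r⁻¹ * y⁻¹ = r * (y * r⁻¹ * y⁻¹) := by group
    rw [h4]; exact mul_mem hr h3
  have h8 : r * y * r⁻¹ * y⁻¹ ∈ centralizer ({y} : Set G) :=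
    mul_mem (mc.mpr h6) (inv_mem (mc.mpr rfl))
  have h9 := fix_Rs H hx hxA hy h7 (mc.mp h8)
  have h10 : g * y * g⁻¹ = y := by rw [hr2]; exact mul_inv_eq_one.mp h9
  calc g * y = (g * y * g⁻¹) * g := by group
    _ = y * g := by rw [h10]

end CfsgLib.H2JH
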