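import Cfsg.Agent.EqBase
import Cfsg.Agent.LibSolvCoprime

set_option autoImplicit false
open Subgroup
open scoped Pointwise
namespace CfsgLib.H2JJ
open CfsgLib.SolvBasic CfsgLib.SolvCoprime

theorem cnt {α β : Type*} [Finite α] [Finite β] (f : α → β) (k : ℕ) (h : ∀ b, Nat.card {a // f a = b} = k) :
    Nat.card α = Nat.card β * k := by
  classical
  haveI := Fintype.ofFinite β
  rw [Nat.card_congr (Equiv.sigmaFiberEquiv f).symm, Nat.card_sigma, Finset.sum_congr rfl (fun b _ => h b),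
    Finset.sum_const, Finset.card_univ, smul_eq_mul, Nat.card_eq_fintype_card]

theorem cntEq {α α' β : Type*} [Finite α] [Finite α'] [Finite β] (f : α → β) (f' : α' → β)
    (h : ∀ b, Nat.card {a // f a = b} = Nat.card {a // f' a = b}) : Nat.card α = Nat.card α' := by
  classical
  haveI := Fintype.ofFinite β
  rw [Nat.card_congr (Equiv.sigmaFiberEquiv f).symm, Nat.card_sigma, Nat.card_congr (Equiv.sigmaFiberEquiv f').symm, Nat.card_sigma]
  exact Finset.sum_congr rfl (fun b _ => h b)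

theorem cnt' {G Q : Type*} [Finite G] [Finite Q] (π : G → Q) {P : G → Prop} {P' : Q → Prop}
    (hP : ∀ g, P g → P' (π g)) (k : ℕ) (h : ∀ q, P' q → Nat.card {g // π g = q ∧ P g} = k) :
    Nat.card {g // P g} = Nat.card {q // P' q} * k := by
  apply cnt (fun g : {g // P g} => (⟨π g.1, hP g.1 g.2⟩ : {q // P' q}))
  rintro ⟨q, hq⟩
  rw [← h q hq]
  exact Nat.card_congr
    { toFun := fun a => ⟨a.1.1, congrArg Subtype.val a.2, a.1.2⟩
      invFun := fun g => ⟨⟨g.1, g.2.2⟩, Subtype.ext g.2.1⟩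
      left_inv := fun a => rfl
      right_inv := fun g => rfl }

variable {G Q : Type*} [Group G] [Group Q] [Finite G] [Finite Q] {p : ℕ}

theorem fiber_ker {π : G →* Q} (hπ : Function.Surjective π) (q : Q) : Nat.card {g // π g = q} = Nat.card π.ker := by
  obtain ⟨g0, rfl⟩ := hπ q
  exact Nat.card_congr
    { toFun := fun g => ⟨g.1 * g0⁻¹, by rw [MonoidHom.mem_ker, map_mul, map_inv, g.2, mul_inv_cancel]⟩
      invFun := fun n => ⟨n.1 * g0, by rw [map_mul, MonoidHom.mem_ker.mp n.2, one_mul]⟩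
      left_inv := fun g => Subtype.ext (inv_mul_cancel_right _ _)
      right_inv := fun n => Subtype.ext (mul_inv_cancel_right _ _) }

theorem nmf {X : Subgroup G} {g : G} (h : ∀ x ∈ X, g * x * g⁻¹ ∈ X) : g ∈ normalizer (X : Set G) := by
  rw [mem_normalizer_iff_conj_smul]
  apply eq_of_le_of_card_ge
  · rintro _ ⟨x, hx, rfl⟩
    exact h x hx
  · exact (Nat.card_congr (equivSMul (MulAut.conj g) X).toEquiv).le

theorem nmf' {X : Subgroup G} {g : G} (h : g ∈ normalizer (X : Set G)) {x : G} (hx : x ∈ X) : g * x * g⁻¹ ∈ X :=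
  (mem_normalizer_iff.mp h x).mp hx

theorem nm_map {π : G →* Q} {X : Subgroup G} {g : G} (h : g ∈ normalizer (X : Set G)) :
    π g ∈ normalizer (X.map π : Set Q) := by
  apply nmf
  rintro _ ⟨x, hx, rfl⟩
  exact ⟨g * x * g⁻¹, nmf' h hx, by rw [map_mul, map_mul, map_inv]⟩

theorem nm_comap {π : G →* Q} {X : Subgroup Q} {g : G} (h : π g ∈ normalizer (X : Set Q)) :
    g ∈ normalizer (X.comap π : Set G) := by
  apply nmf
  intro x hx
  rw [mem_comap] at hx ⊢
  rw [map_mul, map_mul, map_inv]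
  exact nmf' h hx

theorem nm_inf {X Y : Subgroup G} {g : G} (h : g ∈ normalizer (X : Set G)) (h' : g ∈ normalizer (Y : Set G)) :
    g ∈ normalizer ((X ⊓ Y : Subgroup G) : Set G) := by
  apply nmf
  intro x hx
  exact mem_inf.mpr ⟨nmf' h (mem_inf.mp hx).1, nmf' h' (mem_inf.mp hx).2⟩

def Cd (p : ℕ) (H : Subgroup G) (g : G) : Prop :=
  ∃ X : Subgroup G, IsPGroup p X ∧ H ≤ X ∧ g ∈ normalizer (X : Set G)

theorem Cd.map {π : G →* Q} {H : Subgroup G} {g : G} (h : Cd p H g) : Cd p (H.map π) (π g) := by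
  obtain ⟨X, hX, hHX, hg⟩ := h
  exact ⟨X.map π, hX.map π, map_mono hHX, nm_map hg⟩

theorem Cd.of_map {π : G →* Q} (hker : IsPGroup p π.ker) {H : Subgroup G} {g : G} (h : Cd p (H.map π) (π g)) : Cd p H g := by
  obtain ⟨X, hX, hHX, hg⟩ := h
  exact ⟨X.comap π, hX.comap_of_ker_isPGroup π hker, map_le_iff_le_comap.mp hHX, nm_comap hg⟩

theorem count_p {π : G →* Q} (hπ : Function.Surjective π) (hker : IsPGroup p π.ker) (H : Subgroup G) :
    Nat.card {g // Cd p H g} = Nat.card {q // Cd p (H.map π) q} * Nat.card π.ker := by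
  apply cnt' π (fun g hg => hg.map)
  intro q hq
  rw [← fiber_ker hπ q]
  exact Nat.card_congr (Equiv.subtypeEquivRight (fun g => ⟨fun h => h.1, fun h => ⟨h, Cd.of_map hker (by rw [h]; exact hq)⟩⟩))

variable [hp : Fact p.Prime]

theorem inf_bot {Y N : Subgroup G} (hY : IsPGroup p Y) (hN : (Nat.card N).Coprime p) : Y ⊓ N = ⊥ := by
  apply inf_eq_bot_of_coprime
  obtain ⟨k, hk⟩ := hY.exists_card_eq
  rw [hk]
  exact Nat.Coprime.pow_left _ hN.symm

theorem card_map_inj {π : G →* Q} {Y : Subgroup G} (h : Y ⊓ π.ker = ⊥) : Nat.card (Y.map π) = Nat.card Y := by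
  have h1 : ((Y.map π : Subgroup Q) : Set Q) = π '' (Y : Set G) := rfl
  rw [← SetLike.coe_sort_coe (Y.map π), Nat.card_coe_set_eq, h1, Set.ncard_image_of_injOn, ← Nat.card_coe_set_eq, SetLike.coe_sort_coe]
  intro a ha b hb hab
  have h2 : a⁻¹ * b ∈ Y ⊓ π.ker := by
    refine mem_inf.mpr ⟨mul_mem (inv_mem ha) hb, ?_⟩
    rw [MonoidHom.mem_ker, map_mul, map_inv, hab, inv_mul_cancel]
  rw [h, mem_bot] at h2
  exact inv_mul_eq_one.mp h2

theorem fiber_A {π : G →* Q} (hπ : Function.Surjective π) (hker : (Nat.card π.ker).Coprime p) {H : Subgroup G}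
    (hH : IsPGroup p H) {q : Q} (hq : Cd p (H.map π) q) :
    Nat.card {g // π g = q ∧ Cd p H g} = Nat.card ↥(π.ker ⊓ centralizer (H : Set G)) := by
  classical
  obtain ⟨Xb, hXb, hHXb, hqXb⟩ := hq
  obtain ⟨H1, hH1def⟩ : ∃ H1 : Subgroup Q, H1 = sInf {Y : Subgroup Q | H.map π ≤ Y ∧ q ∈ normalizer (Y : Set Q)} := ⟨_, rfl⟩
  have hH1a : H.map π ≤ H1 := by rw [hH1def]; exact le_sInf (fun Y hY => hY.1)
  have hH1b : q ∈ normalizer (H1 : Set Q) := by
    apply nmf
    intro x hx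
    rw [hH1def, mem_sInf] at hx ⊢
    intro Y hY
    exact nmf' hY.2 (hx Y hY)
  have hH1c : ∀ Y : Subgroup Q, H.map π ≤ Y → q ∈ normalizer (Y : Set Q) → H1 ≤ Y := by
    intro Y h1 h2
    rw [hH1def]; exact sInf_le ⟨h1, h2⟩
  have hH1p : IsPGroup p H1 := hXb.to_le (hH1c Xb hHXb hqXb)
  set K1 := H1.comap π with hK1
  set N := π.ker with hN
  have hHK : H ≤ K1 := map_le_iff_le_comap.mp hH1a
  have hcardK : Nat.card K1 = Nat.card H1 * Nat.card N := by
    apply cnt' π (P := fun g => g ∈ K1) (P' := fun q => q ∈ H1) (fun g hg => hg)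
    intro q hq
    rw [hN, ← fiber_ker hπ q]
    exact Nat.card_congr (Equiv.subtypeEquivRight (fun g => ⟨fun h => h.1, fun h => ⟨h, by
      show π g ∈ H1
      rw [h]; exact hq⟩⟩))
  have hcopH1 : ∀ r : ℕ, ¬ p ∣ r → ∀ Y : Subgroup G, IsPGroup p Y → (Nat.card Y).Coprime r := by
    intro r hr Y hY
    obtain ⟨k, hk⟩ := hY.exists_card_eq
    rw [hk]
    exact Nat.Coprime.pow_left _ ((Nat.Prime.coprime_iff_not_dvd hp.out).mpr hr)
  have hcopH1' : ∀ r : ℕ, ¬ p ∣ r → (Nat.card H1).Coprime r := by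
    intro r hr
    obtain ⟨k, hk⟩ := hH1p.exists_card_eq
    rw [hk]
    exact Nat.Coprime.pow_left _ ((Nat.Prime.coprime_iff_not_dvd hp.out).mpr hr)
  have hpN : ¬ p ∣ Nat.card N := fun h => hp.out.one_lt.ne' (Nat.eq_one_of_dvd_coprimes hker h dvd_rfl)
  let YY : Subgroup G → Prop := fun Y => IsPGroup p Y ∧ H ≤ Y ∧ Y.map π = H1
  have hcardY : ∀ Y, YY Y → Nat.card Y = Nat.card H1 := by
    intro Y hY
    rw [← hY.2.2, card_map_inj (inf_bot hY.1 hker)]
  have hYK : ∀ Y, YY Y → Y ≤ K1 := fun Y hY => map_le_iff_le_comap.mp hY.2.2.le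
  have hsyl : ∀ Y, YY Y → IsSylowIn p Y K1 := by
    intro Y hY
    refine ⟨hYK Y hY, hY.1, ?_⟩
    have h1 := relIndex_mul_index (hYK Y hY)
    have h2 := K1.card_mul_index
    have h3 := Y.card_mul_index
    rw [← h1, ← h2, ← mul_assoc] at h3
    have h4 := Nat.eq_of_mul_eq_mul_right (Nat.pos_of_ne_zero (index_ne_zero_of_finite (H := K1))) h3
    rw [hcardK, ← hcardY Y hY] at h4
    rw [Nat.eq_of_mul_eq_mul_left Nat.card_pos h4]
    exact hpN
  have hofsyl : ∀ Y, IsSylowIn p Y K1 → H ≤ Y → YY Y := by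
    intro Y hY hHY
    refine ⟨hY.isPGroup, hHY, ?_⟩
    apply eq_of_le_of_card_ge (map_le_iff_le_comap.mpr hY.le)
    rw [card_map_inj (inf_bot hY.isPGroup hker)]
    have h1 := relIndex_mul_index hY.le
    have h2 := K1.card_mul_index
    have h3 := Y.card_mul_index
    rw [← h1, ← h2, ← mul_assoc] at h3
    have h4 := Nat.eq_of_mul_eq_mul_right (Nat.pos_of_ne_zero (index_ne_zero_of_finite (H := K1))) h3
    rw [hcardK] at h4
    have h5 : Nat.card H1 ∣ Nat.card Y * Y.relIndex K1 := by rw [h4]; exact dvd_mul_right _ _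
    have h6 := (hcopH1' _ hY.not_dvd).dvd_of_dvd_mul_right h5
    exact Nat.le_of_dvd Nat.card_pos h6
  obtain ⟨Y0, hY0syl, hHY0⟩ := IsSylowIn.exists_ge hH hHK
  have hY0 := hofsyl Y0 hY0syl hHY0
  have hinY0 : ∀ k ∈ K1, ∃ y ∈ Y0, π y = π k := by
    intro k hk
    have h1 : π k ∈ Y0.map π := by rw [hY0.2.2]; exact hk
    exact h1
  have hauto : ∀ Y, YY Y → ∀ n ∈ N, MulAut.conj n • Y0 = Y → n ∈ centralizer (H : Set G) := by
    intro Y hY n hn hnY
    rw [mem_centralizer_iff]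
    intro h hh
    have h1 : h ∈ MulAut.conj n • Y0 := by rw [hnY]; exact hY.2.1 hh
    have h2 : n⁻¹ * h * n ∈ Y0 := by
      have := mem_conj_smul.mp h1
      exact this
    have h3 : (n⁻¹ * h * n) * h⁻¹ ∈ Y0 ⊓ N := by
      refine mem_inf.mpr ⟨mul_mem h2 (inv_mem (hHY0 hh)), ?_⟩
      rw [hN, MonoidHom.mem_ker]
      simp only [map_mul, map_inv, MonoidHom.mem_ker.mp hn]
      group
    rw [inf_bot hY0.1 hker, mem_bot] at h3
    have h4 : n⁻¹ * h * n = h := mul_inv_eq_one.mp h3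
    calc h * n = n * (n⁻¹ * h * n) := by group
      _ = n * h := by rw [h4]
  have hconj : ∀ Y, YY Y → ∃ n ∈ N, MulAut.conj n • Y0 = Y := by
    intro Y hY
    obtain ⟨k, hk, hkY⟩ := hY0syl.exists_conj (hsyl Y hY)
    obtain ⟨y, hy, hyk⟩ := hinY0 k hk
    refine ⟨k * y⁻¹, ?_, ?_⟩
    · rw [hN, MonoidHom.mem_ker, map_mul, map_inv, hyk, mul_inv_cancel]
    · rw [map_mul, mul_smul, mem_normalizer_iff_conj_smul.mp (le_normalizer (inv_mem hy)), hkY]
  obtain ⟨g0, hg0, hg0Y⟩ : ∃ g0, π g0 = q ∧ g0 ∈ normalizer (Y0 : Set G) := by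
    obtain ⟨g1, hg1⟩ := hπ q
    have h1 : g1 ∈ normalizer (K1 : Set G) := nm_comap (by rw [hg1]; exact hH1b)
    obtain ⟨k, hk, hkY⟩ := (hY0syl.conj_of_normalizes h1).exists_conj hY0syl
    obtain ⟨y, hy, hyk⟩ := hinY0 k hk
    refine ⟨y⁻¹ * (k * g1), ?_, ?_⟩
    · rw [map_mul, map_mul, map_inv, hyk, hg1, inv_mul_cancel_left]
    · rw [mem_normalizer_iff_conj_smul, map_mul, mul_smul, map_mul, mul_smul, hkY]
      exact mem_normalizer_iff_conj_smul.mp (le_normalizer (inv_mem hy))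
  have huniq : ∀ Y Y', YY Y → YY Y' → ∀ g, π g = q → g ∈ normalizer (Y : Set G) → g ∈ normalizer (Y' : Set G) → Y ≤ Y' := by
    intro Y Y' hY hY' g hg h1 h2
    have h3 : H1 ≤ (Y ⊓ Y').map π := by
      apply hH1c
      · exact map_mono (le_inf hY.2.1 hY'.2.1)
      · rw [← hg]; exact nm_map (nm_inf h1 h2)
    have h4 : Nat.card H1 ≤ Nat.card ↥(Y ⊓ Y') := by
      refine (card_le_of_le h3).trans ?_
      rw [card_map_inj (inf_bot (hY.1.to_le inf_le_left) hker)]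
    rw [← hcardY Y hY] at h4
    have h5 : Y ⊓ Y' = Y := eq_of_le_of_card_ge inf_le_left h4
    exact inf_eq_left.mp h5
  have hexist : ∀ g : {g // π g = q ∧ Cd p H g}, ∃ Y : {Y : Subgroup G // YY Y}, g.1 ∈ normalizer (Y.1 : Set G) := by
    rintro ⟨g, hg, X, hX, hHX, hgX⟩
    have h1 : g ∈ normalizer (K1 : Set G) := nm_comap (by rw [hg]; exact hH1b)
    have h2 : g ∈ normalizer ((X ⊓ K1 : Subgroup G) : Set G) := nm_inf hgX h1
    refine ⟨⟨X ⊓ K1, hX.to_le inf_le_left, le_inf hHX hHK, ?_⟩, h2⟩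
    apply le_antisymm (map_le_iff_le_comap.mpr inf_le_right)
    apply hH1c _ (map_mono (le_inf hHX hHK))
    rw [← hg]; exact nm_map h2
  choose f hf using hexist
  have hC : ∀ c : ↥(N ⊓ centralizer (H : Set G)), YY (MulAut.conj (c : G) • Y0) := by
    rintro ⟨c, hc⟩
    obtain ⟨hc1, hc2⟩ := mem_inf.mp hc
    refine ⟨hY0.1.of_equiv (equivSMul (MulAut.conj c) Y0), ?_, ?_⟩
    · intro h hh
      rw [mem_conj_smul]
      have h1 := mem_centralizer_iff.mp hc2 h hh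
      have h2 : c⁻¹ * h * c = h := by rw [mul_assoc, h1, inv_mul_cancel_left]
      rw [h2]; exact hHY0 hh
    · rw [← hY0.2.2]
      ext u
      constructor
      · rintro ⟨_, ⟨y, hy, rfl⟩, rfl⟩
        refine ⟨y, hy, ?_⟩
        show π y = π (c * y * c⁻¹)
        rw [map_mul, map_mul, map_inv, MonoidHom.mem_ker.mp hc1]; group
      · rintro ⟨y, hy, rfl⟩
        refine ⟨c * y * c⁻¹, ⟨y, hy, rfl⟩, ?_⟩
        rw [map_mul, map_mul, map_inv, MonoidHom.mem_ker.mp hc1]; group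
  let f' : ↥(N ⊓ centralizer (H : Set G)) → {Y : Subgroup G // YY Y} := fun c => ⟨MulAut.conj (c : G) • Y0, hC c⟩
  apply cntEq f f'
  rintro ⟨Y, hY⟩
  obtain ⟨n1, hn1, hn1Y⟩ := hconj Y hY
  have hfib : ∀ g : {g // π g = q ∧ Cd p H g}, f g = ⟨Y, hY⟩ ↔ g.1 ∈ normalizer (Y : Set G) := by
    intro g
    constructor
    · intro h
      have := hf g
      rw [h] at this
      exact this
    · intro h
      apply Subtype.ext
      exact le_antisymm (huniq _ _ (f g).2 hY g.1 g.2.1 (hf g) h) (huniq _ _ hY (f g).2 g.1 g.2.1 h (hf g))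
  symm
  refine Nat.card_congr
    { toFun := fun c => ⟨⟨c.1.1 * g0 * n1⁻¹, ?_, Y, hY.1, hY.2.1, ?_⟩, ?_⟩
      invFun := fun g => ⟨⟨g.1.1 * n1 * g0⁻¹, ?_⟩, ?_⟩
      left_inv := fun c => ?_
      right_inv := fun g => ?_ }
  · rw [map_mul, map_mul, map_inv, MonoidHom.mem_ker.mp (mem_inf.mp c.1.2).1, MonoidHom.mem_ker.mp hn1, one_mul, inv_one, mul_one, hg0]
  · have h1 : MulAut.conj (c.1.1 : G) • Y0 = Y := congrArg Subtype.val c.2
    rw [mem_normalizer_iff_conj_smul, map_mul, map_mul, mul_smul, mul_smul]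
    have h2 : MulAut.conj n1⁻¹ • Y = Y0 := by rw [← hn1Y, ← mul_smul, ← map_mul, inv_mul_cancel, map_one, one_smul]
    rw [h2, mem_normalizer_iff_conj_smul.mp hg0Y, h1]
  · rw [hfib]
    have h1 : MulAut.conj (c.1.1 : G) • Y0 = Y := congrArg Subtype.val c.2
    show c.1.1 * g0 * n1⁻¹ ∈ _
    rw [mem_normalizer_iff_conj_smul, map_mul, map_mul, mul_smul, mul_smul]
    have h2 : MulAut.conj n1⁻¹ • Y = Y0 := by rw [← hn1Y, ← mul_smul, ← map_mul, inv_mul_cancel, map_one, one_smul]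
    rw [h2, mem_normalizer_iff_conj_smul.mp hg0Y, h1]
  · have h1 := (hfib g.1).mp g.2
    have h3 : g.1.1 * n1 * g0⁻¹ ∈ N := by
      rw [hN, MonoidHom.mem_ker, map_mul, map_mul, map_inv, g.1.2.1, hg0, MonoidHom.mem_ker.mp hn1, mul_one, mul_inv_cancel]
    refine mem_inf.mpr ⟨h3, hauto Y hY _ h3 ?_⟩
    rw [map_mul, map_mul, mul_smul, mul_smul, mem_normalizer_iff_conj_smul.mp (inv_mem hg0Y), hn1Y, mem_normalizer_iff_conj_smul.mp h1]
  · have h1 := (hfib g.1).mp g.2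
    apply Subtype.ext
    show MulAut.conj (g.1.1 * n1 * g0⁻¹) • Y0 = Y
    rw [map_mul, map_mul, mul_smul, mul_smul, mem_normalizer_iff_conj_smul.mp (inv_mem hg0Y), hn1Y, mem_normalizer_iff_conj_smul.mp h1]
  · apply Subtype.ext
    apply Subtype.ext
    show c.1.1 * g0 * n1⁻¹ * n1 * g0⁻¹ = c.1.1
    group
  · apply Subtype.ext
    apply Subtype.ext
    show g.1.1 * n1 * g0⁻¹ * g0 * n1⁻¹ = g.1.1
    group

theorem count_p' {π : G →* Q} (hπ : Function.Surjective π) (hker : (Nat.card π.ker).Coprime p) {H : Subgroup G}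
    (hH : IsPGroup p H) :
    Nat.card {g // Cd p H g} = Nat.card {q // Cd p (H.map π) q} * Nat.card ↥(π.ker ⊓ centralizer (H : Set G)) :=
  cnt' π (fun _ hg => hg.map) _ (fun _ hq => fiber_A hπ hker hH hq)

end CfsgLib.H2JJ
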