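import Mathlib

/-! Large abelian subgroups of symmetric and alternating groups. -/

set_option autoImplicit false

namespace CfsgLib.H6Ab

open Equiv

universe u

section numeric

theorem cube_le (s : ℕ) : s ^ 3 ≤ 3 ^ s := by
  by_cases h : s < 3
  · interval_cases s <;> norm_num
  · push Not at h
    induction s, h using Nat.le_induction with
    | base => norm_num
    | succ s hs ih =>
      rw [pow_succ 3 s]
      have : (s + 1) ^ 3 ≤ s ^ 3 * 3 := by
        obtain ⟨k, rfl⟩ : ∃ k, s = 3 + k := ⟨s - 3, by omega⟩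
        nlinarith [Nat.zero_le (k ^ 3), Nat.zero_le (k ^ 2)]
      calc _ ≤ s ^ 3 * 3 := this
        _ ≤ _ := Nat.mul_le_mul_right _ ih

theorem cube_le5 (s : ℕ) (h : 5 ≤ s) : 243 * s ^ 3 ≤ 125 * 3 ^ s := by
  induction s, h using Nat.le_induction with
  | base => norm_num
  | succ s hs ih =>
    rw [pow_succ 3 s]
    have : (s + 1) ^ 3 ≤ s ^ 3 * 3 := by
      obtain ⟨k, rfl⟩ : ∃ k, s = 5 + k := ⟨s - 5, by omega⟩
      nlinarith [Nat.zero_le (k ^ 3), Nat.zero_le (k ^ 2)]
    calc _ ≤ 243 * (s ^ 3 * 3) := Nat.mul_le_mul_left _ this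
      _ = (243 * s ^ 3) * 3 := by ring
      _ ≤ (125 * 3 ^ s) * 3 := Nat.mul_le_mul_right _ ih
      _ = _ := by ring

/-- the weight -/
def W (s : ℕ) : ℚ := (s : ℚ) ^ 3 / 3 ^ s

theorem W_le_one (s : ℕ) : W s ≤ 1 := by
  unfold W
  rw [div_le_one (by positivity)]
  exact_mod_cast cube_le s

theorem W_nonneg (s : ℕ) : 0 ≤ W s := by unfold W; positivity

theorem W_other (s : ℕ) (h2 : s ≠ 2) (h3 : s ≠ 3) (h4 : s ≠ 4) : W s ≤ 125 / 243 := by
  by_cases h : 5 ≤ s
  · unfold W
    rw [div_le_div_iff₀ (by positivity) (by norm_num)]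
    have := cube_le5 s h
    have h1 : ((243 * s ^ 3 : ℕ) : ℚ) ≤ ((125 * 3 ^ s : ℕ) : ℚ) := by exact_mod_cast this
    push_cast at h1
    linarith
  · push Not at h
    interval_cases s
    · norm_num [W]
    · norm_num [W]
    · exact absurd rfl h2
    · exact absurd rfl h3
    · exact absurd rfl h4

theorem W_two : W 2 = 8 / 9 := by norm_num [W]
theorem W_three : W 3 = 1 := by norm_num [W]
theorem W_four : W 4 = 64 / 81 := by norm_num [W]

theorem prod_W {ι : Type*} [Fintype ι] (s : ι → ℕ) : ∏ i, W (s i) = ((∏ i, s i : ℕ) : ℚ) ^ 3 / 3 ^ (∑ i, s i) := by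
  unfold W
  rw [Finset.prod_div_distrib, Finset.prod_pow, Finset.prod_pow_eq_pow_sum]
  push_cast
  rfl

theorem prod_le_pow {ι : Type*} [Fintype ι] [DecidableEq ι] (s : ι → ℕ) (S : Finset ι) (c : ℚ) (hc : ∀ i ∈ S, W (s i) ≤ c) :
    ∏ i, W (s i) ≤ c ^ S.card := by
  rw [← Finset.prod_mul_prod_compl S]
  have h1 : ∏ i ∈ S, W (s i) ≤ ∏ _i ∈ S, c := Finset.prod_le_prod (fun i _ => W_nonneg _) hc
  have h2 : ∏ i ∈ Sᶜ, W (s i) ≤ 1 := Finset.prod_le_one (fun i _ => W_nonneg _) (fun i _ => W_le_one _)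
  have h3 : 0 ≤ ∏ i ∈ S, W (s i) := Finset.prod_nonneg (fun i _ => W_nonneg _)
  rw [Finset.prod_const] at h1
  calc _ ≤ (∏ i ∈ S, W (s i)) * 1 := mul_le_mul_of_nonneg_left h2 h3
    _ ≤ _ := by rw [mul_one]; exact h1

theorem prod_le_W {ι : Type*} [Fintype ι] [DecidableEq ι] (s : ι → ℕ) (i : ι) : ∏ i, W (s i) ≤ W (s i) := by
  have := prod_le_pow s {i} (W (s i)) (by intro j hj; rw [Finset.mem_singleton.mp hj])
  rwa [Finset.card_singleton, pow_one] at this

theorem prod_cube_le {ι : Type*} [Fintype ι] (s : ι → ℕ) : (∏ i, s i) ^ 3 ≤ 3 ^ (∑ i, s i) := by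
  classical
  have h := prod_le_pow s ∅ 1 (by simp)
  rw [Finset.card_empty, pow_zero, prod_W, div_le_one (by positivity)] at h
  exact_mod_cast h

/-- bounds in the symmetric group -/
theorem sym_bound {ι : Type*} [Fintype ι] (s : ι → ℕ) (k : ℕ) :
    (∑ i, s i = 3 * k → ∏ i, s i ≤ 3 ^ k) ∧
    (∑ i, s i = 3 * k + 1 → 1 ≤ k → ∏ i, s i ≤ 4 * 3 ^ (k - 1)) ∧
    (∑ i, s i = 3 * k + 2 → ∏ i, s i ≤ 2 * 3 ^ k) := by
  classical
  have hP := prod_W s
  have hmod : (∀ i, s i = 3) → 3 ∣ ∑ i, s i := by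
    intro h
    apply Finset.dvd_sum
    intro i _
    rw [h i]
  refine ⟨?_, ?_, ?_⟩
  · intro h
    have h1 := prod_cube_le s
    rw [h, mul_comm, pow_mul] at h1
    exact le_of_not_gt fun h2 => absurd (Nat.pow_lt_pow_left h2 (by norm_num : (3 : ℕ) ≠ 0)) (not_lt.mpr h1)
  · intro h hk
    have hb : ∏ i, W (s i) ≤ 64 / 81 := by
      obtain ⟨i, hi⟩ : ∃ i, s i ≠ 3 := by
        by_contra hcon
        push Not at hcon
        have := hmod hcon
        omega
      by_cases hi2 : s i = 2
      · obtain ⟨j, hj, hji⟩ : ∃ j, s j ≠ 3 ∧ j ≠ i := by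
          by_contra hcon
          push Not at hcon
          have h3 : 3 ∣ ∑ j ∈ Finset.univ.erase i, s j := by
            apply Finset.dvd_sum
            intro j hj
            have : s j = 3 := by
              by_contra h4
              exact Finset.ne_of_mem_erase hj (hcon j h4)
            rw [this]
          rw [← Finset.add_sum_erase _ _ (Finset.mem_univ i), hi2] at h
          omega
        have h5 := prod_le_pow s {i, j} (8 / 9) (by
          intro l hl
          rw [Finset.mem_insert, Finset.mem_singleton] at hl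
          rcases hl with rfl | rfl
          · rw [hi2, W_two]
          · by_cases h6 : s l = 2
            · rw [h6, W_two]
            by_cases h7 : s l = 4
            · rw [h7, W_four]; norm_num
            · exact (W_other _ h6 hj h7).trans (by norm_num))
        rw [Finset.card_pair hji.symm] at h5
        exact h5.trans (by norm_num)
      · refine (prod_le_W s i).trans ?_
        by_cases h7 : s i = 4
        · rw [h7, W_four]
        · exact (W_other _ hi2 hi h7).trans (by norm_num)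
    rw [hP, h, div_le_iff₀ (by positivity)] at hb
    have h8 : (∏ i, s i) ^ 3 ≤ (4 * 3 ^ (k - 1)) ^ 3 := by
      obtain ⟨m, rfl⟩ : ∃ m, k = m + 1 := ⟨k - 1, by omega⟩
      have h9 : (((∏ i, s i : ℕ) ^ 3 : ℕ) : ℚ) ≤ (((4 * 3 ^ m) ^ 3 : ℕ) : ℚ) := by
        push_cast
        push_cast at hb
        refine hb.trans (le_of_eq ?_)
        rw [show 3 * (m + 1) + 1 = m * 3 + 4 by ring, pow_add, pow_mul, mul_pow]
        ring
      exact_mod_cast h9
    exact le_of_not_gt fun h2 => absurd (Nat.pow_lt_pow_left h2 (by norm_num : (3 : ℕ) ≠ 0)) (not_lt.mpr h8)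
  · intro h
    have hb : ∏ i, W (s i) ≤ 8 / 9 := by
      obtain ⟨i, hi⟩ : ∃ i, s i ≠ 3 := by
        by_contra hcon
        push Not at hcon
        have := hmod hcon
        omega
      refine (prod_le_W s i).trans ?_
      by_cases h6 : s i = 2
      · rw [h6, W_two]
      by_cases h7 : s i = 4
      · rw [h7, W_four]; norm_num
      · exact (W_other _ h6 hi h7).trans (by norm_num)
    rw [hP, h, div_le_iff₀ (by positivity)] at hb
    have h8 : (∏ i, s i) ^ 3 ≤ (2 * 3 ^ k) ^ 3 := by
      have h9 : (((∏ i, s i : ℕ) ^ 3 : ℕ) : ℚ) ≤ (((2 * 3 ^ k) ^ 3 : ℕ) : ℚ) := by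
        push_cast
        push_cast at hb
        refine hb.trans (le_of_eq ?_)
        rw [show 3 * k + 2 = k * 3 + 2 by ring, pow_add, pow_mul, mul_pow]
        ring
      exact_mod_cast h9
    exact le_of_not_gt fun h2 => absurd (Nat.pow_lt_pow_left h2 (by norm_num : (3 : ℕ) ≠ 0)) (not_lt.mpr h8)

/-- the extremal structure without parts equal to two -/
theorem extremal {ι : Type*} [Fintype ι] [DecidableEq ι] (s : ι → ℕ) (h2 : ∀ i, s i ≠ 2)
    (hb : (4096 / 6561 : ℚ) ≤ ∏ i, W (s i)) :
    (∀ i, s i = 3 ∨ s i = 4) ∧ (Finset.univ.filter (fun i => s i = 4)).card ≤ 2 := by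
  constructor
  · intro i
    by_contra hcon
    push Not at hcon
    have h1 := (prod_le_W s i).trans (W_other _ (h2 i) hcon.1 hcon.2)
    have := hb.trans h1
    norm_num at this
  · by_contra hcon
    push Not at hcon
    have h1 := prod_le_pow s (Finset.univ.filter (fun i => s i = 4)) (64 / 81) (by
      intro i hi
      rw [(Finset.mem_filter.mp hi).2, W_four])
    have h3 : ((64 : ℚ) / 81) ^ (Finset.univ.filter (fun i => s i = 4)).card ≤ (64 / 81) ^ 3 :=
      pow_le_pow_of_le_one (by norm_num) (by norm_num) hcon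
    have := (hb.trans h1).trans h3
    norm_num at this

theorem sum_prod_34 {ι : Type*} [Fintype ι] [DecidableEq ι] (s : ι → ℕ) (h : ∀ i, s i = 3 ∨ s i = 4) :
    ∑ i, s i = 3 * (Finset.univ.filter (fun i => s i = 3)).card + 4 * (Finset.univ.filter (fun i => s i = 4)).card ∧
    ∏ i, s i = 3 ^ (Finset.univ.filter (fun i => s i = 3)).card * 4 ^ (Finset.univ.filter (fun i => s i = 4)).card := by
  have hc : Finset.univ.filter (fun i => ¬ s i = 3) = Finset.univ.filter (fun i => s i = 4) := by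
    apply Finset.filter_congr
    intro i _
    rcases h i with h1 | h1 <;> omega
  constructor
  · rw [← Finset.sum_filter_add_sum_filter_not Finset.univ (fun i => s i = 3), hc,
      Finset.sum_congr rfl (g := fun _ => 3) (fun i hi => (Finset.mem_filter.mp hi).2),
      Finset.sum_congr rfl (s₁ := Finset.univ.filter (fun i => s i = 4)) (g := fun _ => 4) (fun i hi => (Finset.mem_filter.mp hi).2),
      Finset.sum_const, Finset.sum_const, smul_eq_mul, smul_eq_mul, mul_comm, mul_comm 4]
  · rw [← Finset.prod_filter_mul_prod_filter_not Finset.univ (fun i => s i = 3), hc,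
      Finset.prod_congr rfl (g := fun _ => 3) (fun i hi => (Finset.mem_filter.mp hi).2),
      Finset.prod_congr rfl (s₁ := Finset.univ.filter (fun i => s i = 4)) (g := fun _ => 4) (fun i hi => (Finset.mem_filter.mp hi).2),
      Finset.prod_const, Finset.prod_const]

end numeric

end CfsgLib.H6Ab
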