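import Cfsg.Agent.LibH6AbA

/-! Orbits of abelian permutation groups. -/

set_option autoImplicit false

namespace CfsgLib.H6Ab

open Equiv

universe u

variable {α : Type u} [Fintype α] [DecidableEq α]

/-- commuting elements -/
def Co (A : Subgroup (Perm α)) : Prop := ∀ a ∈ A, ∀ b ∈ A, a * b = b * a

/-- the set of orbits -/
abbrev Om (A : Subgroup (Perm α)) := MulAction.orbitRel.Quotient A α

noncomputable instance (A : Subgroup (Perm α)) : Fintype (Om A) := Fintype.ofFinite _

/-- representative -/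
noncomputable def rp (A : Subgroup (Perm α)) (ω : Om A) : α := Quotient.out ω

/-- orbit of an element -/
def orb (A : Subgroup (Perm α)) (x : α) : Set α := MulAction.orbit A x

/-- size -/
noncomputable def sz (A : Subgroup (Perm α)) (ω : Om A) : ℕ := Nat.card (orb A (rp A ω))

theorem mem_orb {A : Subgroup (Perm α)} {x y : α} : y ∈ orb A x ↔ ∃ a ∈ A, a x = y := by
  constructor
  · rintro ⟨⟨a, ha⟩, h⟩; exact ⟨a, ha, h⟩
  · rintro ⟨a, ha, h⟩; exact ⟨⟨a, ha⟩, h⟩

theorem orb_symm {A : Subgroup (Perm α)} {x y : α} (h : y ∈ orb A x) : x ∈ orb A y := by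
  obtain ⟨a, ha, rfl⟩ := mem_orb.mp h
  exact mem_orb.mpr ⟨a⁻¹, A.inv_mem ha, by simp⟩

theorem orb_trans {A : Subgroup (Perm α)} {x y z : α} (h : y ∈ orb A x) (h' : z ∈ orb A y) : z ∈ orb A x := by
  obtain ⟨a, ha, rfl⟩ := mem_orb.mp h
  obtain ⟨b, hb, rfl⟩ := mem_orb.mp h'
  exact mem_orb.mpr ⟨b * a, A.mul_mem hb ha, rfl⟩

theorem orb_refl {A : Subgroup (Perm α)} (x : α) : x ∈ orb A x := mem_orb.mpr ⟨1, A.one_mem, rfl⟩

/-- class of an element -/
def cl (A : Subgroup (Perm α)) (x : α) : Om A := Quotient.mk'' x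

theorem cl_eq {A : Subgroup (Perm α)} {x y : α} : cl A x = cl A y ↔ x ∈ orb A y := by
  unfold cl
  rw [Quotient.eq'']
  rfl

theorem cl_rp (A : Subgroup (Perm α)) (ω : Om A) : cl A (rp A ω) = ω := Quotient.out_eq' ω

theorem mem_orb_rp (A : Subgroup (Perm α)) (x : α) : x ∈ orb A (rp A (cl A x)) := by
  rw [← cl_eq, cl_rp]

theorem orb_eq {A : Subgroup (Perm α)} {x y : α} (h : y ∈ orb A x) : orb A y = orb A x := by
  ext z
  exact ⟨fun hz => orb_trans h hz, fun hz => orb_trans (orb_symm h) hz⟩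

theorem sz_cl (A : Subgroup (Perm α)) (x : α) : sz A (cl A x) = Nat.card (orb A x) := by
  unfold sz
  rw [orb_eq (mem_orb_rp A x)]

theorem sum_sz (A : Subgroup (Perm α)) : ∑ ω : Om A, sz A ω = Fintype.card α := by
  rw [← Nat.card_eq_fintype_card, Nat.card_congr (MulAction.selfEquivSigmaOrbits A α), Nat.card_sigma]
  rfl

theorem fix_all {A : Subgroup (Perm α)} (hc : Co A) {a : Perm α} (ha : a ∈ A) {x y : α} (hxy : y ∈ orb A x) (h : a x = x) :
    a y = y := by
  obtain ⟨c, hcA, rfl⟩ := mem_orb.mp hxy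
  rw [← Perm.mul_apply, hc a ha c hcA, Perm.mul_apply, h]

theorem agree_all {A : Subgroup (Perm α)} (hc : Co A) {a b : Perm α} (ha : a ∈ A) (hb : b ∈ A) {x y : α} (hxy : y ∈ orb A x)
    (h : a x = b x) : a y = b y := by
  obtain ⟨c, hcA, rfl⟩ := mem_orb.mp hxy
  rw [← Perm.mul_apply, hc a ha c hcA, Perm.mul_apply, h, ← Perm.mul_apply, ← hc b hb c hcA, Perm.mul_apply]

/-- the orbit map -/
noncomputable def om (A : Subgroup (Perm α)) (a : A) (ω : Om A) : orb A (rp A ω) := ⟨a.1 (rp A ω), mem_orb.mpr ⟨a.1, a.2, rfl⟩⟩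

theorem om_inj {A : Subgroup (Perm α)} (hc : Co A) : Function.Injective (om A) := by
  rintro ⟨a, ha⟩ ⟨b, hb⟩ h
  apply Subtype.ext
  apply Equiv.ext
  intro x
  apply agree_all hc ha hb (mem_orb_rp A x)
  exact congrArg Subtype.val (congrFun h (cl A x))

theorem card_le (A : Subgroup (Perm α)) (hc : Co A) : Nat.card A ≤ ∏ ω : Om A, sz A ω := by
  have h := Nat.card_le_card_of_injective _ (om_inj hc)
  rwa [Nat.card_pi] at h

theorem full (A : Subgroup (Perm α)) (hc : Co A) (h : Nat.card A = ∏ ω : Om A, sz A ω)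
    (x : Om A → α) (hx : ∀ ω, x ω ∈ orb A (rp A ω)) : ∃ a ∈ A, ∀ ω, a (rp A ω) = x ω := by
  have hb := (om_inj hc).bijective_of_nat_card_le (by rw [h, Nat.card_pi]; exact le_rfl)
  obtain ⟨⟨a, ha⟩, h1⟩ := hb.2 (fun ω => ⟨x ω, hx ω⟩)
  exact ⟨a, ha, fun ω => congrArg Subtype.val (congrFun h1 ω)⟩

theorem card_dvd (A : Subgroup (Perm α)) (hc : Co A) : Nat.card A ∣ ∏ ω : Om A, sz A ω := by
  have hn : ∀ ω : Om A, (MulAction.stabilizer A (rp A ω)).Normal := by
    intro ω
    constructor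
    intro n hn g
    have : g * n * g⁻¹ = n := by
      apply Subtype.ext
      show g.1 * n.1 * g.1⁻¹ = n.1
      rw [hc g.1 g.2 n.1 n.2, mul_inv_cancel_right]
    rwa [this]
  let f : A →* (∀ ω : Om A, A ⧸ MulAction.stabilizer A (rp A ω)) :=
    { toFun := fun a ω => QuotientGroup.mk a
      map_one' := rfl
      map_mul' := fun _ _ => rfl }
  have hf : Function.Injective f := by
    intro a b h
    apply om_inj hc
    funext ω
    have h1 : (QuotientGroup.mk a : A ⧸ MulAction.stabilizer A (rp A ω)) = QuotientGroup.mk b := congrFun h ω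
    rw [QuotientGroup.eq, MulAction.mem_stabilizer_iff, mul_smul, inv_smul_eq_iff] at h1
    exact Subtype.ext h1.symm
  have h := Subgroup.card_dvd_of_injective f hf
  rw [Nat.card_pi] at h
  have h2 : ∀ ω : Om A, Nat.card (A ⧸ MulAction.stabilizer A (rp A ω)) = sz A ω := fun ω =>
    (Nat.card_congr (MulAction.orbitEquivQuotientStabilizer A (rp A ω))).symm
  rwa [Finset.prod_congr rfl (fun ω _ => h2 ω)] at h

/-- supported on one orbit -/
theorem exists_local (A : Subgroup (Perm α)) (hc : Co A) (h : Nat.card A = ∏ ω : Om A, sz A ω) (x y : α) (hy : y ∈ orb A x) :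
    ∃ a ∈ A, a x = y ∧ ∀ z, z ∉ orb A x → a z = z := by
  classical
  obtain ⟨c, hcA, hcx⟩ := mem_orb.mp hy
  obtain ⟨a, ha, h1⟩ := full A hc h (fun ω => if ω = cl A x then c (rp A ω) else rp A ω) (by
    intro ω
    split_ifs
    · exact mem_orb.mpr ⟨c, hcA, rfl⟩
    · exact orb_refl _)
  refine ⟨a, ha, ?_, ?_⟩
  · have h2 := h1 (cl A x)
    rw [if_pos rfl] at h2
    rw [agree_all hc ha hcA (mem_orb_rp A x) h2, hcx]
  · intro z hz
    have h2 := h1 (cl A z)
    rw [if_neg (fun h3 => hz (cl_eq.mp h3))] at h2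
    exact fix_all hc ha (mem_orb_rp A z) h2

theorem support_sub {A : Subgroup (Perm α)} {a : Perm α} {x : α} (h : ∀ z, z ∉ orb A x → a z = z) :
    a.support.card ≤ Nat.card (orb A x) := by
  classical
  rw [Nat.card_eq_card_toFinset]
  apply Finset.card_le_card
  intro z hz
  rw [Set.mem_toFinset]
  by_contra h1
  exact (Perm.mem_support.mp hz) (h z h1)

/-- no orbit of length two -/
theorem no_two (A : Subgroup (Perm α)) (hc : Co A) (h : Nat.card A = ∏ ω : Om A, sz A ω)
    (hs : ∀ a ∈ A, Perm.sign a = 1) (ω : Om A) : sz A ω ≠ 2 := by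
  intro h2
  have h3 : ∃ y ∈ orb A (rp A ω), y ≠ rp A ω := by
    have : Set.Nontrivial (orb A (rp A ω)) := by
      rw [← Set.one_lt_ncard_iff_nontrivial]
      show 1 < Nat.card _
      unfold sz at h2
      omega
    obtain ⟨a, ha, b, hb, hab⟩ := this
    by_cases h4 : a = rp A ω
    · exact ⟨b, hb, fun h5 => hab (h4.trans h5.symm)⟩
    · exact ⟨a, ha, h4⟩
  obtain ⟨y, hy, hyr⟩ := h3
  obtain ⟨a, ha, hax, haz⟩ := exists_local A hc h _ _ hy
  have h4 := support_sub haz
  have hne : a ≠ 1 := by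
    rintro rfl
    exact hyr hax.symm
  have h5 := Perm.two_le_card_support_of_ne_one hne
  have h6 : a.support.card = 2 := by
    unfold sz at h2
    omega
  have h7 := (Perm.card_support_eq_two.mp h6).sign_eq
  rw [hs a ha] at h7
  exact absurd h7 (by decide)

/-- orbits of length four -/
theorem four_inv (A : Subgroup (Perm α)) (hc : Co A) (h : Nat.card A = ∏ ω : Om A, sz A ω)
    (hs : ∀ a ∈ A, Perm.sign a = 1) (x : α) (h4 : Nat.card (orb A x) = 4) {a : Perm α} (ha : a ∈ A) : a (a x) = x := by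
  classical
  by_cases hax : a x = x
  · rw [hax, hax]
  obtain ⟨b, hb, hbx, hbz⟩ := exists_local A hc h x (a x) (mem_orb.mpr ⟨a, ha, rfl⟩)
  have hba : a (a x) = b (b x) := by
    rw [hbx]
    exact agree_all hc ha hb (mem_orb.mpr ⟨a, ha, rfl⟩) hbx.symm
  rw [hba]
  have h5 : b.support.card = 4 := by
    rw [← h4, Nat.card_eq_card_toFinset]
    congr 1
    ext z
    rw [Set.mem_toFinset, Perm.mem_support]
    constructor
    · intro h6
      by_contra h7
      exact h6 (hbz z h7)
    · intro h6 h7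
      apply hax
      have := fix_all hc hb (orb_symm h6) h7
      rw [← hbx, this]
  have h6 := Perm.sum_cycleType b
  rw [h5] at h6
  have h7 := hs b hb
  rw [Perm.sign_of_cycleType, h6] at h7
  have h8 : ∀ n ∈ b.cycleType, 2 ≤ n := fun n hn => Perm.two_le_of_mem_cycleType hn
  have h9 : b ^ 2 = 1 := by
    rw [Perm.pow_prime_eq_one_iff]
    generalize b.cycleType = m at *
    have hcard : m.card ≤ 2 := by
      have := Multiset.card_nsmul_le_sum h8
      rw [smul_eq_mul, h6] at this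
      omega
    have : m.card = 0 ∨ m.card = 1 ∨ m.card = 2 := by omega
    rcases this with h10 | h10 | h10
    · rw [Multiset.card_eq_zero] at h10
      intro c hc; rw [h10] at hc; exact absurd hc (Multiset.notMem_zero _)
    · rw [h10] at h7
      exact absurd h7 (by decide)
    · obtain ⟨p, q, rfl⟩ := Multiset.card_eq_two.mp h10
      have hp := h8 p (by simp)
      have hq := h8 q (by simp)
      simp at h6
      intro c hc
      simp at hc
      omega
  have := congrArg (fun c : Perm α => c x) h9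
  simpa [pow_two] using this

end CfsgLib.H6Ab
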