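import Cfsg.Agent.LibH6AbB

/-! Structure and conjugacy of the largest abelian groups of even permutations. -/

set_option autoImplicit false

namespace CfsgLib.H6Ab

open Equiv

universe u

variable {α : Type u} [Fintype α] [DecidableEq α]

/-- structure of a large abelian group of even permutations -/
theorem struct (A : Subgroup (Perm α)) (hc : Co A) (hs : ∀ a ∈ A, Perm.sign a = 1)
    (hb : 3 ^ Fintype.card α * 64 ^ 2 ≤ 81 ^ 2 * Nat.card A ^ 3) :
    Nat.card A = ∏ ω : Om A, sz A ω ∧ (∀ ω : Om A, sz A ω = 3 ∨ sz A ω = 4) ∧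
      ∃ a b : ℕ, a = (Finset.univ.filter (fun ω : Om A => sz A ω = 3)).card ∧
        b = (Finset.univ.filter (fun ω : Om A => sz A ω = 4)).card ∧
        Fintype.card α = 3 * a + 4 * b ∧ b ≤ 2 ∧ Nat.card A = 3 ^ a * 4 ^ b := by
  classical
  have hP := card_le A hc
  obtain ⟨m, hm⟩ := card_dvd A hc
  have hcube := prod_cube_le (sz A)
  rw [sum_sz] at hcube
  have hpos : 0 < Nat.card A := Nat.card_pos
  have h3 : 0 < 3 ^ Fintype.card α := by positivity
  have hfull : Nat.card A = ∏ ω : Om A, sz A ω := by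
    rcases Nat.lt_or_ge m 2 with h | h
    · interval_cases m
      · omega
      · omega
    · exfalso
      rw [hm] at hcube
      have h4 : (Nat.card A * 2) ^ 3 ≤ (Nat.card A * m) ^ 3 := Nat.pow_le_pow_left (Nat.mul_le_mul_left _ h) 3
      have h5 : (Nat.card A * 2) ^ 3 = 8 * Nat.card A ^ 3 := by ring
      omega
  have hno := no_two A hc hfull hs
  have hW : (4096 / 6561 : ℚ) ≤ ∏ ω : Om A, W (sz A ω) := by
    rw [prod_W, sum_sz, ← hfull, div_le_div_iff₀ (by norm_num) (by positivity)]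
    have h6 : ((3 ^ Fintype.card α * 64 ^ 2 : ℕ) : ℚ) ≤ ((81 ^ 2 * Nat.card A ^ 3 : ℕ) : ℚ) := by exact_mod_cast hb
    push_cast at h6
    linarith
  obtain ⟨h34, hle⟩ := extremal (sz A) hno hW
  obtain ⟨hsum, hprod⟩ := sum_prod_34 (sz A) h34
  rw [sum_sz] at hsum
  refine ⟨hfull, h34, _, _, rfl, rfl, hsum, hle, ?_⟩
  rw [hfull, hprod]

theorem three {X : Finset α} (hX : X.card = 3) {r s : α} (hr : r ∈ X) (hs : s ∈ X) (hrs : s ≠ r) :
    ∃ u, u ≠ r ∧ u ≠ s ∧ ∀ x, x ∈ X ↔ x = r ∨ x = s ∨ x = u := by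
  have h1 : ((X.erase r).erase s).card = 1 := by
    rw [Finset.card_erase_of_mem (Finset.mem_erase.mpr ⟨hrs, hs⟩), Finset.card_erase_of_mem hr, hX]
  obtain ⟨u, hu⟩ := Finset.card_eq_one.mp h1
  have h2 : u ∈ (X.erase r).erase s := by rw [hu]; exact Finset.mem_singleton_self u
  rw [Finset.mem_erase, Finset.mem_erase] at h2
  refine ⟨u, h2.2.1, h2.1, ?_⟩
  intro x
  constructor
  · intro hx
    by_cases hxr : x = r
    · exact Or.inl hxr
    by_cases hxs : x = s
    · exact Or.inr (Or.inl hxs)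
    have : x ∈ (X.erase r).erase s := Finset.mem_erase.mpr ⟨hxs, Finset.mem_erase.mpr ⟨hxr, hx⟩⟩
    rw [hu, Finset.mem_singleton] at this
    exact Or.inr (Or.inr this)
  · rintro (rfl | rfl | rfl)
    · exact hr
    · exact hs
    · exact h2.2.2

theorem four {X : Finset α} (hX : X.card = 4) {r s : α} (hr : r ∈ X) (hs : s ∈ X) (hrs : s ≠ r) :
    ∃ u v, u ≠ r ∧ u ≠ s ∧ v ≠ r ∧ v ≠ s ∧ u ≠ v ∧ ∀ x, x ∈ X ↔ x = r ∨ x = s ∨ x = u ∨ x = v := by
  have h1 : ((X.erase r).erase s).card = 2 := by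
    rw [Finset.card_erase_of_mem (Finset.mem_erase.mpr ⟨hrs, hs⟩), Finset.card_erase_of_mem hr, hX]
  obtain ⟨u, v, huv, hu⟩ := Finset.card_eq_two.mp h1
  have h2 : u ∈ (X.erase r).erase s := by rw [hu]; simp
  have h3 : v ∈ (X.erase r).erase s := by rw [hu]; simp
  rw [Finset.mem_erase, Finset.mem_erase] at h2 h3
  refine ⟨u, v, h2.2.1, h2.1, h3.2.1, h3.1, huv, ?_⟩
  intro x
  constructor
  · intro hx
    by_cases hxr : x = r
    · exact Or.inl hxr
    by_cases hxs : x = s
    · exact Or.inr (Or.inl hxs)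
    have : x ∈ (X.erase r).erase s := Finset.mem_erase.mpr ⟨hxs, Finset.mem_erase.mpr ⟨hxr, hx⟩⟩
    rw [hu, Finset.mem_insert, Finset.mem_singleton] at this
    exact Or.inr (Or.inr this)
  · rintro (rfl | rfl | rfl | rfl)
    · exact hr
    · exact hs
    · exact h2.2.2
    · exact h3.2.2

/-- two permutations which agree at a point agree -/
theorem local_agree {X : Finset α} (c d : Perm α) (hcX : ∀ x ∈ X, c x ∈ X) (hdX : ∀ x ∈ X, d x ∈ X)
    (hcf : ∀ x ∈ X, ∀ y ∈ X, c x = x → c y = y) (hdf : ∀ x ∈ X, ∀ y ∈ X, d x = x → d y = y)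
    (h34 : X.card = 3 ∨ (X.card = 4 ∧ (∀ x ∈ X, c (c x) = x) ∧ ∀ x ∈ X, d (d x) = x))
    {r : α} (hr : r ∈ X) (h : c r = d r) : ∀ x ∈ X, c x = d x := by
  by_cases hrr : c r = r
  · intro x hx
    rw [hcf r hr x hx hrr, hdf r hr x hx (by rw [← h, hrr])]
  obtain ⟨s, hs⟩ : ∃ s, s = c r := ⟨_, rfl⟩
  have hsX : s ∈ X := by rw [hs]; exact hcX r hr
  have hsr : s ≠ r := by rw [hs]; exact hrr
  rcases h34 with h3 | ⟨h4, hci, hdi⟩
  · obtain ⟨u, hur, hus, hX⟩ := three h3 hr hsX hsr
    have huX : u ∈ X := (hX u).mpr (Or.inr (Or.inr rfl))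
    have key : ∀ e : Perm α, (∀ x ∈ X, e x ∈ X) → (∀ x ∈ X, ∀ y ∈ X, e x = x → e y = y) → e r = s → e s = u ∧ e u = r := by
      intro e heX hef her
      have hne : ∀ x ∈ X, e x ≠ x := fun x hx hxx => hsr (her.symm.trans (hef x hx r hr hxx))
      have h5 : e s = u := by
        rcases (hX (e s)).mp (heX s hsX) with h6 | h6 | h6
        · exfalso
          rcases (hX (e u)).mp (heX u huX) with h7 | h7 | h7
          · exact hus (e.injective (h7.trans h6.symm))
          · exact hur (e.injective (h7.trans her.symm))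
          · exact hne u huX h7
        · exact absurd h6 (hne s hsX)
        · exact h6
      refine ⟨h5, ?_⟩
      rcases (hX (e u)).mp (heX u huX) with h7 | h7 | h7
      · exact h7
      · exact absurd (e.injective (h7.trans her.symm)) hur
      · exact absurd h7 (hne u huX)
    have kc := key c hcX hcf hs.symm
    have kd := key d hdX hdf (by rw [← h, hs])
    intro x hx
    rcases (hX x).mp hx with rfl | rfl | rfl
    · exact h
    · rw [kc.1, kd.1]
    · rw [kc.2, kd.2]
  · obtain ⟨u, v, hur, hus, hvr, hvs, huv, hX⟩ := four h4 hr hsX hsr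
    have huX : u ∈ X := (hX u).mpr (by simp)
    have hvX : v ∈ X := (hX v).mpr (by simp)
    have key : ∀ e : Perm α, (∀ x ∈ X, e x ∈ X) → (∀ x ∈ X, ∀ y ∈ X, e x = x → e y = y) → (∀ x ∈ X, e (e x) = x) →
        e r = s → e s = r ∧ e u = v ∧ e v = u := by
      intro e heX hef hei her
      have hne : ∀ x ∈ X, e x ≠ x := fun x hx hxx => hsr (her.symm.trans (hef x hx r hr hxx))
      have h5 : e s = r := by rw [← her]; exact hei r hr
      refine ⟨h5, ?_, ?_⟩
      · rcases (hX (e u)).mp (heX u huX) with h7 | h7 | h7 | h7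
        · exact absurd (e.injective (h7.trans h5.symm)) hus
        · exact absurd (e.injective (h7.trans her.symm)) hur
        · exact absurd h7 (hne u huX)
        · exact h7
      · rcases (hX (e v)).mp (heX v hvX) with h7 | h7 | h7 | h7
        · exact absurd (e.injective (h7.trans h5.symm)) hvs
        · exact absurd (e.injective (h7.trans her.symm)) hvr
        · exact h7
        · exact absurd h7 (hne v hvX)
    have kc := key c hcX hcf hci hs.symm
    have kd := key d hdX hdf hdi (by rw [← h, hs])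
    intro x hx
    rcases (hX x).mp hx with rfl | rfl | rfl | rfl
    · exact h
    · rw [kc.1, kd.1]
    · rw [kc.2.1, kd.2.1]
    · rw [kc.2.2, kd.2.2]

/-- groups with the same orbits coincide -/
theorem same_orbits (A B : Subgroup (Perm α)) (hcA : Co A) (hcB : Co B) (hB : Nat.card B = ∏ ω : Om B, sz B ω)
    (horb : ∀ x y, y ∈ orb A x ↔ y ∈ orb B x) (h34 : ∀ x, Nat.card (orb B x) = 3 ∨ Nat.card (orb B x) = 4)
    (iA : ∀ x, Nat.card (orb A x) = 4 → ∀ a ∈ A, a (a x) = x) (iB : ∀ x, Nat.card (orb B x) = 4 → ∀ a ∈ B, a (a x) = x) :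
    A ≤ B := by
  classical
  have horb' : ∀ x, orb A x = orb B x := fun x => Set.ext fun y => horb x y
  intro a ha
  obtain ⟨b, hb, hab⟩ := full B hcB hB (fun ω => a (rp B ω)) (fun ω => (horb _ _).mp (mem_orb.mpr ⟨a, ha, rfl⟩))
  have : a = b := by
    apply Equiv.ext
    intro z
    have hX : ∀ x, x ∈ (orb B (rp B (cl B z))).toFinset ↔ x ∈ orb B (rp B (cl B z)) := fun x => Set.mem_toFinset
    have hmA : ∀ x ∈ orb B (rp B (cl B z)), ∀ y ∈ orb B (rp B (cl B z)), y ∈ orb A x := by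
      intro x hx y hy
      rw [horb]
      exact orb_trans (orb_symm hx) hy
    have hmB : ∀ x ∈ orb B (rp B (cl B z)), ∀ y ∈ orb B (rp B (cl B z)), y ∈ orb B x := by
      intro x hx y hy
      exact orb_trans (orb_symm hx) hy
    apply local_agree (X := (orb B (rp B (cl B z))).toFinset) a b (r := rp B (cl B z))
    · intro x hx
      rw [hX] at hx ⊢
      exact orb_trans hx ((horb _ _).mp (mem_orb.mpr ⟨a, ha, rfl⟩))
    · intro x hx
      rw [hX] at hx ⊢
      exact orb_trans hx (mem_orb.mpr ⟨b, hb, rfl⟩)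
    · intro x hx y hy h
      rw [hX] at hx hy
      exact fix_all hcA ha (hmA x hx y hy) h
    · intro x hx y hy h
      rw [hX] at hx hy
      exact fix_all hcB hb (hmB x hx y hy) h
    · rw [← Nat.card_eq_card_toFinset]
      rcases h34 (rp B (cl B z)) with h | h
      · exact Or.inl h
      · refine Or.inr ⟨h, ?_, ?_⟩
        · intro x hx
          rw [hX] at hx
          apply iA x _ a ha
          rw [horb', orb_eq hx, h]
        · intro x hx
          rw [hX] at hx
          apply iB x _ b hb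
          rw [orb_eq hx, h]
    · rw [hX]; exact orb_refl _
    · exact (hab _).symm
    · rw [hX]; exact mem_orb_rp B z
  rw [this]; exact hb

/-- decomposition into orbits -/
noncomputable def dec (A : Subgroup (Perm α)) : α ≃ Σ ω : Om A, orb A (rp A ω) where
  toFun x := ⟨cl A x, x, mem_orb_rp A x⟩
  invFun p := p.2.1
  left_inv _ := rfl
  right_inv := by
    rintro ⟨ω, y, hy⟩
    have : cl A y = ω := by rw [cl_eq.mpr hy, cl_rp]
    subst this
    rfl

/-- a permutation matching the orbits -/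
theorem exists_match (A B : Subgroup (Perm α)) (h : ∀ c, Nat.card {ω : Om A // sz A ω = c} = Nat.card {ω : Om B // sz B ω = c}) :
    ∃ σ : Perm α, ∀ x y, cl A x = cl A y ↔ cl B (σ x) = cl B (σ y) := by
  classical
  have h1 : ∀ c, Nonempty ({ω : Om A // sz A ω = c} ≃ {ω : Om B // sz B ω = c}) := fun c => Finite.card_eq.mp (h c)
  let e : Om A ≃ Om B := Equiv.ofFiberEquiv (f := sz A) (g := sz B) (fun c => (h1 c).some)
  have he : ∀ ω, sz B (e ω) = sz A ω := fun ω => Equiv.ofFiberEquiv_map (f := sz A) (g := sz B) (fun c => (h1 c).some) ω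
  have h2 : ∀ ω, Nonempty (orb A (rp A ω) ≃ orb B (rp B (e ω))) := fun ω => Finite.card_eq.mp (he ω).symm
  let E : (Σ ω : Om A, orb A (rp A ω)) ≃ (Σ ω : Om B, orb B (rp B ω)) := Equiv.sigmaCongr e (fun ω => (h2 ω).some)
  refine ⟨(dec A).trans (E.trans (dec B).symm), ?_⟩
  have h3 : ∀ x, cl B (((dec A).trans (E.trans (dec B).symm)) x) = e (cl A x) := by
    intro x
    have h4 : ∀ p, cl B ((dec B).symm p) = p.1 := by
      intro p
      have : p = (dec B) ((dec B).symm p) := ((dec B).apply_symm_apply p).symm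
      conv_rhs => rw [this]
      rfl
    show cl B ((dec B).symm (E (dec A x))) = _
    rw [h4]
    rfl
  intro x y
  rw [h3, h3, e.injective.eq_iff]

theorem exists_match_even (A B : Subgroup (Perm α)) (h : ∀ c, Nat.card {ω : Om A // sz A ω = c} = Nat.card {ω : Om B // sz B ω = c})
    (h2 : ∃ x y, x ≠ y ∧ y ∈ orb A x) :
    ∃ σ : Perm α, Perm.sign σ = 1 ∧ ∀ x y, cl A x = cl A y ↔ cl B (σ x) = cl B (σ y) := by
  obtain ⟨σ, hσ⟩ := exists_match A B h
  rcases Int.units_eq_one_or (Perm.sign σ) with h1 | h1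
  · exact ⟨σ, h1, hσ⟩
  · obtain ⟨x, y, hxy, hyx⟩ := h2
    refine ⟨σ * swap x y, ?_, ?_⟩
    · rw [Perm.sign_mul, h1, Perm.sign_swap hxy]; decide
    · have h3 : ∀ z, cl A (swap x y z) = cl A z := by
        intro z
        by_cases h4 : z = x
        · rw [h4, swap_apply_left]; exact cl_eq.mpr hyx
        by_cases h5 : z = y
        · rw [h5, swap_apply_right]; exact (cl_eq.mpr hyx).symm
        rw [swap_apply_of_ne_of_ne h4 h5]
      intro z w
      rw [Perm.mul_apply, Perm.mul_apply, ← hσ, h3, h3]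

/-- the conjugate subgroup -/
theorem conj_eq (A B : Subgroup (Perm α)) (hcA : Co A) (hcB : Co B) (hA : Nat.card A = ∏ ω : Om A, sz A ω)
    (hB : Nat.card B = ∏ ω : Om B, sz B ω) (hcard : Nat.card A = Nat.card B)
    (h34 : ∀ x, Nat.card (orb B x) = 3 ∨ Nat.card (orb B x) = 4)
    (hsA : ∀ a ∈ A, Perm.sign a = 1) (hsB : ∀ a ∈ B, Perm.sign a = 1)
    (σ : Perm α) (hσ : ∀ x y, cl A x = cl A y ↔ cl B (σ x) = cl B (σ y)) :
    A.map (MulAut.conj σ).toMonoidHom = B := by
  have hcC : Co (A.map (MulAut.conj σ).toMonoidHom) := by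
    rintro _ ⟨a, ha, rfl⟩ _ ⟨b, hb, rfl⟩
    rw [← map_mul, ← map_mul, hcA a ha b hb]
  have horbC : ∀ x, orb (A.map (MulAut.conj σ).toMonoidHom) (σ x) = σ '' (orb A x) := by
    intro x
    ext y
    rw [mem_orb, Set.mem_image]
    constructor
    · rintro ⟨_, ⟨a, ha, rfl⟩, h⟩
      refine ⟨a x, mem_orb.mpr ⟨a, ha, rfl⟩, ?_⟩
      rw [← h]
      show σ (a x) = (σ * a * σ⁻¹) (σ x)
      simp
    · rintro ⟨z, hz, rfl⟩
      obtain ⟨a, ha, rfl⟩ := mem_orb.mp hz
      refine ⟨σ * a * σ⁻¹, ⟨a, ha, rfl⟩, ?_⟩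
      simp
  have hle : A.map (MulAut.conj σ).toMonoidHom ≤ B := by
    apply same_orbits _ _ hcC hcB hB _ h34
    · intro x hx a ha
      obtain ⟨a, ha, rfl⟩ := ha
      obtain ⟨z, rfl⟩ := σ.surjective x
      rw [horbC, Nat.card_image_of_injective σ.injective] at hx
      show (σ * a * σ⁻¹) ((σ * a * σ⁻¹) (σ z)) = σ z
      simp only [Perm.mul_apply]
      rw [show σ⁻¹ (σ z) = z by simp, show σ⁻¹ (σ (a z)) = a z by simp, four_inv A hcA hA hsA z hx ha]
    · intro x hx a ha
      exact four_inv B hcB hB hsB x hx ha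
    · intro x y
      obtain ⟨z, rfl⟩ := σ.surjective x
      obtain ⟨w, rfl⟩ := σ.surjective y
      rw [horbC, Set.mem_image]
      constructor
      · rintro ⟨v, hv, h⟩
        rw [σ.injective h] at hv
        exact cl_eq.mp ((hσ w z).mp (cl_eq.mpr hv))
      · intro h
        exact ⟨w, cl_eq.mp ((hσ w z).mpr (cl_eq.mpr h)), rfl⟩
  apply Subgroup.eq_of_le_of_card_ge hle
  rw [Nat.card_congr (A.equivMapOfInjective _ (MulAut.conj σ).injective).symm.toEquiv, hcard]

/-- large abelian groups of even permutations are conjugate -/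
theorem conj_large (A B : Subgroup (Perm α)) (hcA : Co A) (hcB : Co B)
    (hsA : ∀ a ∈ A, Perm.sign a = 1) (hsB : ∀ a ∈ B, Perm.sign a = 1) (hn : 1 ≤ Fintype.card α)
    (hbA : 3 ^ Fintype.card α * 64 ^ 2 ≤ 81 ^ 2 * Nat.card A ^ 3)
    (hbB : 3 ^ Fintype.card α * 64 ^ 2 ≤ 81 ^ 2 * Nat.card B ^ 3) :
    ∃ σ : Perm α, Perm.sign σ = 1 ∧ A.map (MulAut.conj σ).toMonoidHom = B := by
  classical
  obtain ⟨hA, h34A, a, b, ha, hb, hab, hb2, hcA'⟩ := struct A hcA hsA hbA
  obtain ⟨hB, h34B, a', b', ha', hb', hab', hb2', hcB'⟩ := struct B hcB hsB hbB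
  have e1 : b = b' := by omega
  have e2 : a = a' := by omega
  have hfib : ∀ c, Nat.card {ω : Om A // sz A ω = c} = Nat.card {ω : Om B // sz B ω = c} := by
    intro c
    rw [Nat.card_eq_fintype_card, Nat.card_eq_fintype_card, Fintype.card_subtype, Fintype.card_subtype]
    by_cases h3 : c = 3
    · rw [h3, ← ha, ← ha', e2]
    by_cases h4 : c = 4
    · rw [h4, ← hb, ← hb', e1]
    · have u1 : Finset.univ.filter (fun ω : Om A => sz A ω = c) = ∅ := by
        rw [Finset.filter_eq_empty_iff]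
        intro ω _ h
        rcases h34A ω with h5 | h5 <;> omega
      have u2 : Finset.univ.filter (fun ω : Om B => sz B ω = c) = ∅ := by
        rw [Finset.filter_eq_empty_iff]
        intro ω _ h
        rcases h34B ω with h5 | h5 <;> omega
      rw [u1, u2]; rfl
  have h2 : ∃ x y, x ≠ y ∧ y ∈ orb A x := by
    obtain ⟨x⟩ : Nonempty α := Fintype.card_pos_iff.mp hn
    have h5 := h34A (cl A x)
    rw [sz_cl] at h5
    have h6 : Set.Nontrivial (orb A x) := by
      rw [← Set.one_lt_ncard_iff_nontrivial]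
      show 1 < Nat.card _
      omega
    obtain ⟨y, hy, hyx⟩ := h6.exists_ne x
    exact ⟨x, y, hyx.symm, hy⟩
  obtain ⟨σ, hσ, hm⟩ := exists_match_even A B hfib h2
  refine ⟨σ, hσ, conj_eq A B hcA hcB hA hB (by rw [hcA', hcB', e1, e2]) ?_ hsA hsB σ hm⟩
  intro x
  rw [← sz_cl]
  exact h34B _

end CfsgLib.H6Ab
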