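import Cfsg.Agent.LibH6AbC

/-! Largest abelian subgroups of symmetric and alternating groups: the theorems. -/

set_option autoImplicit false

namespace CfsgLib.H6Ab

open Equiv

/-- an abelian permutation group of order `N`, consisting of even permutations if `e` holds -/
def Ab (e : Prop) (α : Type) [Fintype α] [DecidableEq α] (N : ℕ) : Prop :=
  ∃ A : Subgroup (Perm α), Co A ∧ (e → ∀ a ∈ A, Perm.sign a = 1) ∧ Nat.card A = N

theorem Ab.mono {e e' : Prop} (h : e' → e) {α : Type} [Fintype α] [DecidableEq α] {N : ℕ} : Ab e α N → Ab e' α N := by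
  rintro ⟨A, h1, h2, h3⟩
  exact ⟨A, h1, fun he => h2 (h he), h3⟩

theorem Ab.equiv {e : Prop} {α β : Type} [Fintype α] [DecidableEq α] [Fintype β] [DecidableEq β] (f : α ≃ β) {N : ℕ} :
    Ab e α N → Ab e β N := by
  rintro ⟨A, h1, h2, h3⟩
  refine ⟨A.map f.permCongrHom.toMonoidHom, ?_, ?_, ?_⟩
  · rintro _ ⟨a, ha, rfl⟩ _ ⟨b, hb, rfl⟩
    rw [← map_mul, ← map_mul, h1 a ha b hb]
  · rintro he _ ⟨a, ha, rfl⟩
    show Perm.sign (f.permCongr a) = 1
    rw [Perm.sign_permCongr]; exact h2 he a ha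
  · rw [← h3]
    exact (Nat.card_congr (A.equivMapOfInjective _ f.permCongrHom.injective).toEquiv).symm

theorem Ab.sum {e : Prop} {α β : Type} [Fintype α] [DecidableEq α] [Fintype β] [DecidableEq β] {N M : ℕ} :
    Ab e α N → Ab e β M → Ab e (α ⊕ β) (N * M) := by
  rintro ⟨A, h1, h2, h3⟩ ⟨B, k1, k2, k3⟩
  refine ⟨(A.prod B).map (Perm.sumCongrHom α β), ?_, ?_, ?_⟩
  · rintro _ ⟨⟨a, b⟩, ⟨ha, hb⟩, rfl⟩ _ ⟨⟨c, d⟩, ⟨hc, hd⟩, rfl⟩
    rw [← map_mul, ← map_mul]
    congr 1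
    exact Prod.ext (h1 a ha c hc) (k1 b hb d hd)
  · rintro he _ ⟨⟨a, b⟩, ⟨ha, hb⟩, rfl⟩
    show Perm.sign (Perm.sumCongr a b) = 1
    rw [Perm.sign_sumCongr, h2 he a ha, k2 he b hb, one_mul]
  · rw [← h3, ← k3, ← Nat.card_prod, ← Nat.card_congr (Subgroup.prodEquiv A B).toEquiv]
    exact (Nat.card_congr ((A.prod B).equivMapOfInjective _ Perm.sumCongrHom_injective).toEquiv).symm

theorem Ab.add {e : Prop} {a b N M : ℕ} (h : Ab e (Fin a) N) (h' : Ab e (Fin b) M) : Ab e (Fin (a + b)) (N * M) :=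
  (h.sum h').equiv finSumFinEquiv

theorem ab_zero : Ab True (Fin 0) 1 :=
  ⟨⊥, by
    intro a ha b hb
    rw [Subgroup.mem_bot] at ha hb
    rw [ha, hb], by
    intro _ a ha
    rw [Subgroup.mem_bot] at ha
    rw [ha, map_one], Subgroup.card_bot⟩

theorem ab_two : Ab False (Fin 2) 2 :=
  ⟨⊤, by
    have h : ∀ a b : Perm (Fin 2), a * b = b * a := by decide
    exact fun a _ b _ => h a b, fun h => h.elim, by
    rw [Subgroup.card_top, Nat.card_eq_fintype_card]; decide⟩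

theorem ab_three : Ab True (Fin 3) 3 :=
  ⟨alternatingGroup (Fin 3), by
    have : ∀ a b : Perm (Fin 3), Perm.sign a = 1 → Perm.sign b = 1 → a * b = b * a := by decide
    intro a ha b hb
    exact this a b ha hb, fun _ a ha => ha, by
    rw [nat_card_alternatingGroup, Nat.card_eq_fintype_card]; decide⟩

/-- Klein four group -/
def K4 : Subgroup (Perm (Fin 4)) where
  carrier := {a | a = 1 ∨ a = swap 0 1 * swap 2 3 ∨ a = swap 0 2 * swap 1 3 ∨ a = swap 0 3 * swap 1 2}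
  one_mem' := Or.inl rfl
  mul_mem' := by
    rintro a b (rfl | rfl | rfl | rfl) (rfl | rfl | rfl | rfl)
    all_goals
      rw [Set.mem_setOf_eq]
      decide
  inv_mem' := by
    rintro a (rfl | rfl | rfl | rfl)
    all_goals
      rw [Set.mem_setOf_eq]
      decide

instance : DecidablePred (· ∈ K4) := fun a => by
  unfold K4
  show Decidable (a = 1 ∨ a = swap 0 1 * swap 2 3 ∨ a = swap 0 2 * swap 1 3 ∨ a = swap 0 3 * swap 1 2)
  infer_instance

theorem ab_four : Ab True (Fin 4) 4 :=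
  ⟨K4, by
    rintro a (rfl | rfl | rfl | rfl) b (rfl | rfl | rfl | rfl)
    all_goals decide, by
    rintro _ a (rfl | rfl | rfl | rfl)
    all_goals decide, by
    rw [Nat.card_eq_fintype_card, Fintype.card_subtype]
    decide +kernel⟩

theorem ab_five : Ab True (Fin 5) 5 := by
  refine ⟨Subgroup.zpowers (finRotate 5), ?_, ?_, ?_⟩
  · rintro _ ⟨a, rfl⟩ _ ⟨b, rfl⟩
    show finRotate 5 ^ a * finRotate 5 ^ b = finRotate 5 ^ b * finRotate 5 ^ a
    rw [← zpow_add, ← zpow_add, add_comm]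
  · rintro _ _ ⟨a, rfl⟩
    show Perm.sign (finRotate 5 ^ a) = 1
    rw [map_zpow, show Perm.sign (finRotate 5) = 1 by decide, one_zpow]
  · rw [Nat.card_zpowers]
    haveI : Fact (Nat.Prime 5) := ⟨by norm_num⟩
    exact orderOf_eq_prime (by decide) (by decide)

theorem ab_three_mul (m : ℕ) : Ab True (Fin (3 * m)) (3 ^ m) := by
  induction m with
  | zero => exact ab_zero
  | succ m ih =>
    rw [pow_succ]
    exact ih.add ab_three

theorem ab_34 (m j : ℕ) : Ab True (Fin (3 * m + 4 * j)) (3 ^ m * 4 ^ j) := by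
  induction j with
  | zero => rw [mul_zero, add_zero, pow_zero, mul_one]; exact ab_three_mul m
  | succ j ih =>
    rw [pow_succ, ← mul_assoc, mul_add, ← add_assoc]
    exact ih.add ab_four

theorem co_of {G : Type*} [Group G] {A : Subgroup G} (h : IsMulCommutative A) : ∀ a ∈ A, ∀ b ∈ A, a * b = b * a := by
  intro a ha b hb
  exact congrArg Subtype.val (h.is_comm.comm ⟨a, ha⟩ ⟨b, hb⟩)

theorem of_co {G : Type*} [Group G] {A : Subgroup G} (h : ∀ a ∈ A, ∀ b ∈ A, a * b = b * a) : IsMulCommutative A :=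
  ⟨⟨fun a b => Subtype.ext (h a.1 a.2 b.1 b.2)⟩⟩

/-- the symmetric group of any degree -/
theorem sym_greatest (k : ℕ) (hk : 1 ≤ k) :
    IsGreatest {c : ℕ | ∃ A : Subgroup (Perm (Fin (3 * k))), IsMulCommutative A ∧ Nat.card A = c} (3 ^ k) ∧
    IsGreatest {c : ℕ | ∃ A : Subgroup (Perm (Fin (3 * k + 1))), IsMulCommutative A ∧ Nat.card A = c}
      (4 * 3 ^ (k - 1)) ∧
    IsGreatest {c : ℕ | ∃ A : Subgroup (Perm (Fin (3 * k + 2))), IsMulCommutative A ∧ Nat.card A = c}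
      (2 * 3 ^ k) := by
  refine ⟨⟨?_, ?_⟩, ⟨?_, ?_⟩, ⟨?_, ?_⟩⟩
  · obtain ⟨A, h1, _, h3⟩ := ab_three_mul k
    exact ⟨A, of_co h1, h3⟩
  · rintro c ⟨A, hA, rfl⟩
    exact (card_le A (co_of hA)).trans ((sym_bound (sz A) k).1 (by rw [sum_sz, Fintype.card_fin]))
  · obtain ⟨m, rfl⟩ : ∃ m, k = m + 1 := ⟨k - 1, by omega⟩
    obtain ⟨A, h1, _, h3⟩ := ab_34 m 1
    refine ⟨A, of_co h1, ?_⟩
    rw [Nat.add_sub_cancel]
    exact h3.trans (by ring)
  · rintro c ⟨A, hA, rfl⟩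
    exact (card_le A (co_of hA)).trans ((sym_bound (sz A) k).2.1 (by rw [sum_sz, Fintype.card_fin]) hk)
  · obtain ⟨A, h1, _, h3⟩ := ((ab_three_mul k).mono (fun h => h.elim)).add ab_two
    refine ⟨A, of_co h1, ?_⟩
    exact h3.trans (by ring)
  · rintro c ⟨A, hA, rfl⟩
    exact (card_le A (co_of hA)).trans ((sym_bound (sz A) k).2.2 (by rw [sum_sz, Fintype.card_fin]))

theorem hb_of (m j N : ℕ) (hj : j ≤ 2) (h : 3 ^ m * 4 ^ j ≤ N) : 3 ^ (3 * m + 4 * j) * 64 ^ 2 ≤ 81 ^ 2 * N ^ 3 := by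
  have h1 : (3 ^ m * 4 ^ j) ^ 3 ≤ N ^ 3 := Nat.pow_le_pow_left h 3
  have h2 : 3 ^ (3 * m + 4 * j) * 64 ^ 2 ≤ 81 ^ 2 * (3 ^ m * 4 ^ j) ^ 3 := by
    have h3 : 3 ^ (3 * m + 4 * j) = (3 ^ m) ^ 3 * 81 ^ j := by
      rw [pow_add, mul_comm 3 m, pow_mul, pow_mul]
      norm_num
    rw [h3, mul_pow, ← pow_mul 4, mul_comm j 3, pow_mul 4]
    have h4 : 81 ^ j * 64 ^ 2 ≤ 81 ^ 2 * (4 ^ 3) ^ j := by
      interval_cases j <;> norm_num
    calc (3 ^ m) ^ 3 * 81 ^ j * 64 ^ 2 = (3 ^ m) ^ 3 * (81 ^ j * 64 ^ 2) := by ring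
      _ ≤ (3 ^ m) ^ 3 * (81 ^ 2 * (4 ^ 3) ^ j) := Nat.mul_le_mul_left _ h4
      _ = _ := by ring
  exact h2.trans (Nat.mul_le_mul_left _ h1)

theorem alt_bound {n : ℕ} (A : Subgroup (Perm (Fin n))) (hc : Co A) (hs : ∀ a ∈ A, Perm.sign a = 1)
    (m j : ℕ) (hn : n = 3 * m + 4 * j) (hj : j ≤ 2) : Nat.card A ≤ 3 ^ m * 4 ^ j := by
  by_contra hcon
  push Not at hcon
  subst hn
  obtain ⟨_, _, a, b, _, _, hab, hb, hcard⟩ := struct A hc hs (by
    rw [Fintype.card_fin]; exact hb_of m j _ hj hcon.le)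
  rw [Fintype.card_fin] at hab
  have e1 : b = j := by omega
  have e2 : a = m := by omega
  rw [hcard, e1, e2] at hcon
  exact lt_irrefl _ hcon

/-- passage to the alternating group -/
theorem alt_of_ab {n N : ℕ} (h : Ab True (Fin n) N) :
    ∃ A : Subgroup (alternatingGroup (Fin n)), IsMulCommutative A ∧ Nat.card A = N := by
  obtain ⟨A, h1, h2, h3⟩ := h
  refine ⟨A.subgroupOf (alternatingGroup (Fin n)), ?_, ?_⟩
  · apply of_co
    intro a ha b hb
    exact Subtype.ext (h1 a.1 ha b.1 hb)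
  · rw [← h3]
    exact Nat.card_congr (Subgroup.subgroupOfEquivOfLe (fun a ha => h2 trivial a ha)).toEquiv

theorem map_co {n : ℕ} {A : Subgroup (alternatingGroup (Fin n))} (hA : IsMulCommutative A) :
    Co (A.map (alternatingGroup (Fin n)).subtype) ∧ (∀ a ∈ A.map (alternatingGroup (Fin n)).subtype, Perm.sign a = 1) ∧
      Nat.card (A.map (alternatingGroup (Fin n)).subtype) = Nat.card A := by
  refine ⟨?_, ?_, ?_⟩
  · rintro _ ⟨a, ha, rfl⟩ _ ⟨b, hb, rfl⟩
    rw [← map_mul, ← map_mul, co_of hA a ha b hb]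
  · rintro _ ⟨a, _, rfl⟩
    exact a.2
  · exact Nat.card_congr (A.equivMapOfInjective _ (Subgroup.subtype_injective _)).symm.toEquiv

theorem alt_greatest (k : ℕ) (hk : 2 ≤ k) :
    IsGreatest {c : ℕ | ∃ A : Subgroup (alternatingGroup (Fin (3 * k))), IsMulCommutative A ∧ Nat.card A = c} (3 ^ k) ∧
    IsGreatest {c : ℕ | ∃ A : Subgroup (alternatingGroup (Fin (3 * k + 1))), IsMulCommutative A ∧ Nat.card A = c}
      (4 * 3 ^ (k - 1)) ∧
    IsGreatest {c : ℕ | ∃ A : Subgroup (alternatingGroup (Fin (3 * k + 2))), IsMulCommutative A ∧ Nat.card A = c}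
      (16 * 3 ^ (k - 2)) := by
  have hub : ∀ (n : ℕ) (A : Subgroup (alternatingGroup (Fin n))), IsMulCommutative A → ∀ m j, n = 3 * m + 4 * j → j ≤ 2 →
      Nat.card A ≤ 3 ^ m * 4 ^ j := by
    intro n A hA m j hn hj
    obtain ⟨h1, h2, h3⟩ := map_co hA
    rw [← h3]
    exact alt_bound _ h1 h2 m j hn hj
  refine ⟨⟨?_, ?_⟩, ⟨?_, ?_⟩, ⟨?_, ?_⟩⟩
  · exact alt_of_ab (ab_three_mul k)
  · rintro c ⟨A, hA, rfl⟩
    have := hub _ A hA k 0 (by omega) (by omega)
    rwa [pow_zero, mul_one] at this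
  · obtain ⟨m, rfl⟩ : ∃ m, k = m + 1 := ⟨k - 1, by omega⟩
    obtain ⟨A, h1, h2⟩ := alt_of_ab (ab_34 m 1)
    refine ⟨A, h1, h2.trans ?_⟩
    rw [Nat.add_sub_cancel]; ring
  · rintro c ⟨A, hA, rfl⟩
    have := hub _ A hA (k - 1) 1 (by omega) (by omega)
    exact this.trans (le_of_eq (by ring))
  · obtain ⟨m, rfl⟩ : ∃ m, k = m + 2 := ⟨k - 2, by omega⟩
    obtain ⟨A, h1, h2⟩ := alt_of_ab (ab_34 m 2)
    refine ⟨A, h1, h2.trans ?_⟩
    rw [Nat.add_sub_cancel]; ring
  · rintro c ⟨A, hA, rfl⟩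
    have := hub _ A hA (k - 2) 2 (by omega) (by omega)
    exact this.trans (le_of_eq (by ring))

/-- degree five -/
theorem five_card (A : Subgroup (Perm (Fin 5))) (hc : Co A) (hs : ∀ a ∈ A, Perm.sign a = 1) (h5 : 5 ≤ Nat.card A) :
    Nat.card A = 5 := by
  classical
  have hP := card_le A hc
  obtain ⟨m, hm⟩ := card_dvd A hc
  have hb := (sym_bound (sz A) 1).2.2 (by rw [sum_sz, Fintype.card_fin])
  norm_num at hb
  have hfull : Nat.card A = ∏ ω : Om A, sz A ω := by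
    have h1 : m = 1 := by
      have h2 : Nat.card A * m ≤ 6 := by rw [← hm]; exact hb
      have h3 : m < 2 := by
        by_contra h4
        push Not at h4
        have := Nat.mul_le_mul h5 h4
        omega
      interval_cases m
      · rw [mul_zero] at hm; omega
      · rfl
    rw [hm, h1, mul_one]
  by_contra hne
  have h6 : Nat.card A = 6 := by omega
  have hno := no_two A hc hfull hs
  have h7 : ∏ ω : Om A, W (sz A ω) = 216 / 243 := by
    rw [prod_W, sum_sz, ← hfull, h6, Fintype.card_fin]; norm_num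
  have h8 : ∀ ω : Om A, sz A ω = 3 := by
    intro ω
    by_contra h9
    have h10 := prod_le_W (sz A) ω
    rw [h7] at h10
    by_cases h11 : sz A ω = 4
    · rw [h11, W_four] at h10; norm_num at h10
    · have := h10.trans (W_other _ (hno ω) h9 h11)
      norm_num at this
  have h9 : 3 ∣ ∑ ω : Om A, sz A ω := Finset.dvd_sum (fun ω _ => by rw [h8 ω])
  rw [sum_sz, Fintype.card_fin] at h9
  omega

theorem alt_conj (n : ℕ)
    (A B : Subgroup (alternatingGroup (Fin n))) (hA : IsMulCommutative A) (hB : IsMulCommutative B)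
    (hAmax : ∀ C : Subgroup (alternatingGroup (Fin n)), IsMulCommutative C → Nat.card C ≤ Nat.card A)
    (hBmax : ∀ C : Subgroup (alternatingGroup (Fin n)), IsMulCommutative C → Nat.card C ≤ Nat.card B) :
    ∃ g : alternatingGroup (Fin n), B = A.map (MulAut.conj g).toMonoidHom := by
  by_cases hn2 : n ≤ 2
  · have hsub : Subsingleton (alternatingGroup (Fin n)) := by
      constructor
      rintro ⟨a, ha⟩ ⟨b, hb⟩
      apply Subtype.ext
      show a = b
      have ha' : Perm.sign a = 1 := ha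
      have hb' : Perm.sign b = 1 := hb
      clear hAmax hBmax hA hB A B ha hb
      revert a b
      interval_cases n <;> decide
    exact ⟨1, Subsingleton.elim _ _⟩
  by_cases hn5 : n = 5
  · subst hn5
    obtain ⟨C, hC, hC5⟩ := alt_of_ab ab_five
    obtain ⟨a1, a2, a3⟩ := map_co hA
    obtain ⟨b1, b2, b3⟩ := map_co hB
    have hA5 : Nat.card A = 5 := by
      rw [← a3]
      exact five_card _ a1 a2 (by rw [a3]; exact hC5.symm.le.trans (hAmax C hC))
    have hB5 : Nat.card B = 5 := by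
      rw [← b3]
      exact five_card _ b1 b2 (by rw [b3]; exact hC5.symm.le.trans (hBmax C hC))
    haveI : Fact (Nat.Prime 5) := ⟨by norm_num⟩
    have hcard : Nat.card (alternatingGroup (Fin 5)) = 60 := by
      rw [nat_card_alternatingGroup, Nat.card_eq_fintype_card, Fintype.card_fin]; decide
    have hfac : (Nat.card (alternatingGroup (Fin 5))).factorization 5 = 1 := by
      rw [hcard]
      rw [show (60 : ℕ) = 5 ^ 1 * 12 by norm_num, Nat.factorization_mul (by norm_num) (by norm_num), Nat.factorization_pow]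
      simp [Nat.Prime.factorization_self (show Nat.Prime 5 by norm_num), Nat.factorization_eq_zero_of_not_dvd (show ¬ 5 ∣ 12 by norm_num)]
    let P : Sylow 5 (alternatingGroup (Fin 5)) := Sylow.ofCard A (by rw [hfac, hA5]; rfl)
    let Q : Sylow 5 (alternatingGroup (Fin 5)) := Sylow.ofCard B (by rw [hfac, hB5]; rfl)
    obtain ⟨g, hg⟩ := MulAction.exists_smul_eq (alternatingGroup (Fin 5)) P Q
    refine ⟨g, ?_⟩
    have h1 := congrArg (fun S : Sylow 5 (alternatingGroup (Fin 5)) => (S : Subgroup (alternatingGroup (Fin 5)))) hg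
    exact h1.symm
  · obtain ⟨m, j, hmj, hj⟩ : ∃ m j, n = 3 * m + 4 * j ∧ j ≤ 2 := by
      have : n % 3 = 0 ∨ n % 3 = 1 ∨ n % 3 = 2 := by omega
      rcases this with h | h | h
      · exact ⟨n / 3, 0, by omega, by omega⟩
      · exact ⟨n / 3 - 1, 1, by omega, by omega⟩
      · exact ⟨n / 3 - 2, 2, by omega, by omega⟩
    obtain ⟨C, hC, hCc⟩ := alt_of_ab (ab_34 m j)
    subst hmj
    obtain ⟨a1, a2, a3⟩ := map_co hA
    obtain ⟨b1, b2, b3⟩ := map_co hB
    obtain ⟨σ, hσ, h⟩ := conj_large _ _ a1 b1 a2 b2 (by rw [Fintype.card_fin]; omega)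
      (by rw [Fintype.card_fin, a3]; exact hb_of m j _ hj (hCc.symm.le.trans (hAmax C hC)))
      (by rw [Fintype.card_fin, b3]; exact hb_of m j _ hj (hCc.symm.le.trans (hBmax C hC)))
    refine ⟨⟨σ, hσ⟩, ?_⟩
    apply Subgroup.map_injective (Subgroup.subtype_injective (alternatingGroup (Fin (3 * m + 4 * j))))
    rw [← h, Subgroup.map_map, Subgroup.map_map]
    rfl

end CfsgLib.H6Ab
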