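import Cfsg.Agent.EqBase
import Cfsg.Agent.LibFusionH12f

/-! Alperin's fusion theorem with tame intersections and `p`-elements. -/

set_option autoImplicit false
set_option linter.unusedSectionVars false

namespace CfsgLib.H6

open Cfsg Subgroup CfsgLib.FusionH12 CfsgLib.FusionH12c CfsgLib.FusionH12f

variable {G : Type*} [Group G] [Finite G] {p : ℕ} [hp : Fact p.Prime]

/-- `P ∩ Q` is a tame intersection -/
def TameInt (p : ℕ) (P Q : Subgroup G) : Prop :=
  ¬ p ∣ (P ⊓ normalizer ((P ⊓ Q : Subgroup G) : Set G)).relIndex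
      (normalizer ((P ⊓ Q : Subgroup G) : Set G)) ∧
    ¬ p ∣ (Q ⊓ normalizer ((P ⊓ Q : Subgroup G) : Set G)).relIndex
      (normalizer ((P ⊓ Q : Subgroup G) : Set G))

/-- conjugations by `p`-elements normalizing a tame intersection, or elements of `N_G(P)` -/
def TameStep (P : Sylow p G) (D : Subgroup G) (x : G) : Prop :=
  (∃ Q : Sylow p G, D ≤ (P : Subgroup G) ⊓ (Q : Subgroup G) ∧
      TameInt p (P : Subgroup G) (Q : Subgroup G) ∧
      x ∈ normalizer (((P : Subgroup G) ⊓ (Q : Subgroup G) : Subgroup G) : Set G) ∧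
      ∃ k, orderOf x = p ^ k) ∨
    (D ≤ (P : Subgroup G) ∧ x ∈ normalizer ((P : Subgroup G) : Set G))

theorem TameStep.anti {P : Sylow p G} (D E : Subgroup G) (x : G) (h : E ≤ D)
    (hx : TameStep P D x) : TameStep P E x := by
  rcases hx with ⟨Q, hD, ht, hx, hk⟩ | ⟨hD, hx⟩
  · exact Or.inl ⟨Q, h.trans hD, ht, hx, hk⟩
  · exact Or.inr ⟨h.trans hD, hx⟩

theorem TameStep.inv {P : Sylow p G} (D : Subgroup G) (x : G)
    (hx : TameStep P D x) : TameStep P (cj x D) x⁻¹ := by
  rcases hx with ⟨Q, hD, ht, hx, k, hk⟩ | ⟨hD, hx⟩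
  · refine Or.inl ⟨Q, ?_, ht, inv_mem hx, k, by rw [orderOf_inv, hk]⟩
    have := cj_mono (a := x) hD
    rwa [cj_of_mem_nrm hx] at this
  · refine Or.inr ⟨?_, inv_mem hx⟩
    have := cj_mono (a := x) hD
    rwa [cj_of_mem_nrm hx] at this

theorem tame_fam (P : Sylow p G) : IsAlpFam p (P : Subgroup G)
    {U | U ∈ {T : Subgroup G | T ≤ (P : Subgroup G)} ∧
      SylIn p ((P : Subgroup G) ⊓ normalizer (U : Set G)) (normalizer (U : Set G))} :=
  CfsgLib.FusionH12c.IsAlpFam.restrict (allFam (SylIn.ofSylow P))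

theorem tame_claim (P : Sylow p G) : ∀ (n : ℕ) (U : Subgroup G) (x : G),
    U ≤ (P : Subgroup G) →
    SylIn p ((P : Subgroup G) ⊓ normalizer (U : Set G)) (normalizer (U : Set G)) →
    Nat.card (P : Subgroup G) - Nat.card U ≤ n → x ∈ normalizer (U : Set G) →
    Reach (TameStep P) U x := by
  intro n
  induction n with
  | zero =>
    intro U x hU hs hn hx
    have hUP : U = (P : Subgroup G) := Subgroup.eq_of_le_of_card_ge hU (by omega)
    exact Reach.single (Or.inr ⟨hU, by rw [← hUP]; exact hx⟩)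
  | succ n ih =>
    intro U x hU hs hn hx
    rcases eq_or_lt_of_le hU with hUP | hUP
    · exact Reach.single (Or.inr ⟨hU, by rw [← hUP]; exact hx⟩)
    -- moving larger subgroups
    have big : ∀ (E : Subgroup G) (g : G), U < E → E ≤ (P : Subgroup G) →
        cj g E ≤ (P : Subgroup G) → Reach (TameStep P) U g := by
      intro E g hUE hE hg
      have h1 := (alperin' P.2 (fun U hU => hU.1) (tame_fam P) hE hg).famStep_card
      have h2 : Reach (TameStep P) E g := by
        refine h1.bind ?_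
        rintro D y ⟨V, ⟨⟨hV, hVs⟩, hcard⟩, hDV, hy⟩
        have h3 := card_lt_of_lt hUE
        exact (ih V y hV hVs (by omega) hy).anti TameStep.anti hDV
      exact h2.anti TameStep.anti hUE.le
    obtain ⟨S0, hS0⟩ : ∃ S0, S0 = (P : Subgroup G) ⊓ normalizer (U : Set G) := ⟨_, rfl⟩
    have hUS0 : U < S0 := by rw [hS0]; exact lt_nrm_inf P.2 hUP
    rw [← hS0] at hs
    have hS0P : S0 ≤ (P : Subgroup G) := by rw [hS0]; exact inf_le_left
    have hxU : cj x⁻¹ U = U := cj_of_mem_nrm (inv_mem hx)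
    have hU2 : U ≤ cj x⁻¹ S0 := by rw [← hxU]; exact cj_mono hUS0.le
    by_cases hlt : U < S0 ⊓ cj x⁻¹ S0
    · refine big _ x hlt (inf_le_left.trans hS0P) ?_
      refine (cj_mono inf_le_right).trans ?_
      rw [cj_cj_inv]; exact hS0P
    have hUeq : U = S0 ⊓ cj x⁻¹ S0 :=
      (eq_or_lt_of_le (le_inf hUS0.le hU2)).resolve_right hlt
    -- the other Sylow subgroup
    have hQ1 := (SylIn.ofSylow P).cj x⁻¹
    rw [cj_top] at hQ1
    obtain ⟨Q, hQ⟩ := hQ1.exists_sylow_coe
    have hNU : cj x⁻¹ (normalizer (U : Set G)) = normalizer (U : Set G) := by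
      rw [cj_normalizer, hxU]
    have hQN : (Q : Subgroup G) ⊓ normalizer (U : Set G) = cj x⁻¹ S0 := by
      rw [hQ, hS0, cj_inf, hNU]
    have hUQ : U ≤ (Q : Subgroup G) := by rw [hQ, ← hxU]; exact cj_mono hU
    have hPQ : (P : Subgroup G) ⊓ (Q : Subgroup G) = U := by
      by_contra hne
      have h1 : U < (P : Subgroup G) ⊓ (Q : Subgroup G) :=
        lt_of_le_of_ne (le_inf hU hUQ) (Ne.symm hne)
      have h2 := lt_nrm_inf (P.2.to_le inf_le_left) h1
      refine hlt (h2.trans_le ?_)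
      rw [← hQN, hS0]
      exact le_inf (inf_le_inf_right _ inf_le_left) (inf_le_inf_right _ inf_le_right)
    have htame : TameInt p (P : Subgroup G) (Q : Subgroup G) := by
      unfold TameInt
      rw [hPQ, ← hS0, hQN]
      refine ⟨hs.idx, ?_⟩
      have h1 := hs.cj x⁻¹
      rw [hNU] at h1
      exact h1.idx
    -- Frattini argument
    obtain ⟨M, hM⟩ : ∃ M : Subgroup G,
      M = Subgroup.closure {y | y ∈ normalizer (U : Set G) ∧ ∃ k, orderOf y = p ^ k} := ⟨_, rfl⟩
    have hMN : M ≤ normalizer (U : Set G) := by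
      rw [hM, Subgroup.closure_le]
      exact fun y hy => hy.1
    have hpM : ∀ T : Subgroup G, IsPGroup p T → T ≤ normalizer (U : Set G) → T ≤ M := by
      intro T hT hTN y hy
      rw [hM]
      refine Subgroup.subset_closure ⟨hTN hy, ?_⟩
      obtain ⟨k, hk⟩ := (IsPGroup.iff_orderOf.mp hT) ⟨y, hy⟩
      exact ⟨k, by rw [← hk, Subgroup.orderOf_mk]⟩
    have hsx : SylIn p (cj x S0) (normalizer (U : Set G)) := by
      have h1 := hs.cj x
      rwa [cj_normalizer, cj_of_mem_nrm hx] at h1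
    have h1 : SylIn p S0 M := hs.mono (hpM _ hs.pg hs.le) hMN
    have h2 : SylIn p (cj x S0) M := hsx.mono (hpM _ hsx.pg hsx.le) hMN
    obtain ⟨m, hm, hmS⟩ := h1.exists_conj h2
    have h3 : Reach (TameStep P) U (m * x) := by
      refine big S0 (m * x) hUS0 hS0P ?_
      rw [cj_mul, hmS]; exact hS0P
    have h4 : ∀ y ∈ M, cj y U = U ∧ Reach (TameStep P) U y := by
      intro y hy
      rw [hM] at hy
      induction hy using Subgroup.closure_induction with
      | mem y hy =>
        refine ⟨cj_of_mem_nrm hy.1, Reach.single (Or.inl ⟨Q, hPQ.ge, htame, ?_, hy.2⟩)⟩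
        rw [hPQ]; exact hy.1
      | one => exact ⟨cj_one U, Reach.refl U⟩
      | mul y z _ _ hy hz =>
        refine ⟨by rw [cj_mul, hz.1, hy.1], ?_⟩
        exact hz.2.trans (by rw [hz.1]; exact hy.2)
      | inv y _ hy =>
        have h1 : cj y⁻¹ U = U := by
          conv_lhs => rw [← hy.1]
          rw [cj_inv_cj]
        refine ⟨h1, ?_⟩
        have := hy.2.inv TameStep.inv
        rwa [hy.1] at this
    have h5 := h4 m⁻¹ (inv_mem hm)
    have h6 : cj (m * x) U = U := by
      rw [cj_mul, cj_of_mem_nrm hx]; exact (h4 m hm).1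
    have h7 := h3.trans (y := m⁻¹) (by rw [h6]; exact h5.2)
    rwa [inv_mul_cancel_left] at h7

/-- **Alperin's fusion theorem** for tame intersections. -/
theorem tame_alperin (P : Sylow p G) {D : Subgroup G} {g : G} (hD : D ≤ (P : Subgroup G))
    (hg : cj g D ≤ (P : Subgroup G)) : Reach (TameStep P) D g := by
  have h1 := alperin' P.2 (fun U hU => hU.1) (tame_fam P) hD hg
  refine h1.bind ?_
  rintro E y ⟨V, ⟨hV, hVs⟩, hEV, hy⟩
  exact (tame_claim P _ V y hV hVs le_rfl hy).anti TameStep.anti hEV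

theorem tameInt_self (P : Sylow p G) : TameInt p (P : Subgroup G) (P : Subgroup G) := by
  have h : ¬ p ∣ ((P : Subgroup G) ⊓ normalizer ((P : Subgroup G) : Set G)).relIndex
      (normalizer ((P : Subgroup G) : Set G)) := by
    rw [inf_of_le_left Subgroup.le_normalizer]
    exact ((SylIn.ofSylow P).mono Subgroup.le_normalizer le_top).idx
  unfold TameInt
  rw [inf_idem]
  exact ⟨h, h⟩

end CfsgLib.H6
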