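import Cfsg.Agent.LibExc
import Cfsg.Agent.LibBlkSmall
import Cfsg.Agent.LibFSDef0
import Cfsg.Agent.LibKleinOrd
import Cfsg.Agent.LibPB20
/-!
# Simple groups of order `4 p^a q^b` and `3 p^a q^b` (helper6): characters of degree three
-/
set_option autoImplicit false
set_option linter.all false
open Cfsg CfsgLib.CharBasic
open scoped ComplexConjugate
namespace CfsgLib.H6Br

universe u
variable {G : Type u} [Group G] [Finite G]

/-- homomorphisms of a nonabelian simple group to an abelian group are trivial -/
theorem hom_trivial [IsSimpleGroup G] (hna : ∃ x y : G, x * y ≠ y * x) (f : G →* ℂˣ) (g : G) : f g = 1 := by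
  obtain ⟨a, b, hab⟩ := hna
  have hker : f.ker = ⊤ := by
    rcases f.normal_ker.eq_bot_or_eq_top with h | h
    · exfalso
      apply hab
      have h2 : a * b * (b * a)⁻¹ ∈ f.ker := by
        rw [MonoidHom.mem_ker, map_mul, map_inv, map_mul, map_mul, mul_comm (f b), mul_inv_cancel]
      rw [h, Subgroup.mem_bot, mul_inv_eq_one] at h2
      exact h2
    · exact h
  have : g ∈ f.ker := by rw [hker]; trivial
  exact this

/-- eigenvalues of an element in a representation of degree three of a simple group -/
theorem eigs [IsSimpleGroup G] (hna : ∃ x y : G, x * y ≠ y * x) {χ : G → ℂ} (hχ : IsIrrCharacter G χ) (h3 : χ 1 = 3) (g : G) :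
    ∃ a b c : ℂ, ‖a‖ = 1 ∧ ‖b‖ = 1 ∧ ‖c‖ = 1 ∧ a * b * c = 1 ∧ ∀ k : ℕ, χ (g ^ k) = a ^ k + b ^ k + c ^ k := by
  obtain ⟨m, ρ, hρ, rfl⟩ := hχ
  obtain ⟨b, ω, h1, h2⟩ := exists_diag_rep ρ g
  have hn : orderOf g ≠ 0 := (orderOf_pos g).ne'
  have hdet : LinearMap.det (ρ g) = ∏ i, ω i := by
    rw [← LinearMap.det_toMatrix b]
    have : LinearMap.toMatrix b b (ρ g) = Matrix.diagonal ω := by
      ext i j
      rw [LinearMap.toMatrix_apply, h2, map_smul, Finsupp.smul_apply, Module.Basis.repr_self, Matrix.diagonal_apply,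
        Finsupp.single_apply, smul_eq_mul]
      by_cases hij : i = j
      · subst hij; simp
      · rw [if_neg hij, if_neg (Ne.symm hij), mul_zero]
    rw [this, Matrix.det_diagonal]
  have hdet1 : LinearMap.det (ρ g) = 1 := by
    let f0 : G →* ℂ := (LinearMap.det : (Module.End ℂ (Fin m → ℂ)) →* ℂ).comp ρ
    have h3 := hom_trivial hna f0.toHomUnits g
    have h4 := congrArg (fun u : ℂˣ => (u : ℂ)) h3
    simpa [f0] using h4
  have htr : ∀ k : ℕ, ρ.character (g ^ k) = ∑ i, ω i ^ k := by
    intro k
    rw [Representation.character]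
    exact trace_of_diag b _ _ (fun i => diag_pow ρ g (h2 i) k)
  have hfin : Module.finrank ℂ (Fin m → ℂ) = 3 := by
    rw [Representation.char_one] at h3
    exact_mod_cast h3
  rw [hdet] at hdet1
  revert ω b
  rw [hfin]
  intro b ω h1 h2 hdet h5 h6
  refine ⟨ω 0, ω 1, ω 2, norm_one_of_pow hn (h1 0), norm_one_of_pow hn (h1 1), norm_one_of_pow hn (h1 2), ?_, ?_⟩
  · rw [Fin.prod_univ_three] at h5; exact h5
  · intro k
    rw [h6 k, Fin.sum_univ_three]

theorem e2 {a b c : ℂ} (ha : ‖a‖ = 1) (hb : ‖b‖ = 1) (hc : ‖c‖ = 1) (h : a * b * c = 1) :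
    a * b + a * c + b * c = conj (a + b + c) := by
  have ha0 : a ≠ 0 := by intro h0; rw [h0, norm_zero] at ha; exact zero_ne_one ha
  have hb0 : b ≠ 0 := by intro h0; rw [h0, norm_zero] at hb; exact zero_ne_one hb
  have hc0 : c ≠ 0 := by intro h0; rw [h0, norm_zero] at hc; exact zero_ne_one hc
  rw [map_add, map_add, ← inv_eq_conj_of_norm ha, ← inv_eq_conj_of_norm hb, ← inv_eq_conj_of_norm hc]
  have e1 : a⁻¹ = b * c := by exact inv_eq_of_mul_eq_one_right (by linear_combination h)
  have e2 : b⁻¹ = a * c := by exact inv_eq_of_mul_eq_one_right (by linear_combination h)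
  have e3 : c⁻¹ = a * b := by exact inv_eq_of_mul_eq_one_right (by linear_combination h)
  rw [e1, e2, e3]; ring

/-- value `-1` forces an involution -/
theorem sq_of_neg_one [IsSimpleGroup G] (hna : ∃ x y : G, x * y ≠ y * x) {χ : G → ℂ} (hχ : IsIrrCharacter G χ) (h3 : χ 1 = 3)
    (g : G) (hg : χ g = -1) : g ^ 2 = 1 := by
  haveI := Fintype.ofFinite G
  obtain ⟨a, b, c, ha, hb, hc, habc, hk⟩ := eigs hna hχ h3 g
  have h1 : a + b + c = -1 := by
    have := hk 1
    rw [pow_one, hg] at this
    simpa using this.symm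
  have h2 := e2 ha hb hc habc
  rw [h1, map_neg, map_one] at h2
  have key : ∀ x y z : ℂ, x + y + z = -1 → x * y + x * z + y * z = -1 → x * y * z = 1 → x ^ 2 = 1 := by
    intro x y z e1 e2 e3
    have : (x - 1) * (x + 1) ^ 2 = 0 := by
      have hz : z = -1 - x - y := by linear_combination e1
      subst hz
      linear_combination e3 - x * e2
    rcases mul_eq_zero.1 this with h | h
    · have : x = 1 := by linear_combination h
      rw [this]; norm_num
    · have := pow_eq_zero_iff (two_ne_zero) |>.1 h
      have : x = -1 := by linear_combination this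
      rw [this]; norm_num
  have ea := key a b c h1 h2 habc
  have eb := key b a c (by linear_combination h1) (by linear_combination h2) (by linear_combination habc)
  have ec := key c a b (by linear_combination h1) (by linear_combination h2) (by linear_combination habc)
  have h4 : χ (g ^ 2) = χ 1 := by rw [hk 2, ea, eb, ec, h3]; norm_num
  have hne : χ ≠ fun _ => 1 := by
    intro h; rw [h] at h3; norm_num at h3
  exact CfsgLib.Exc.simple_faithful hχ hne h4

/-- value `0` forces order three -/
theorem cube_of_zero [IsSimpleGroup G] (hna : ∃ x y : G, x * y ≠ y * x) {χ : G → ℂ} (hχ : IsIrrCharacter G χ) (h3 : χ 1 = 3)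
    (g : G) (hg : χ g = 0) : g ^ 3 = 1 := by
  haveI := Fintype.ofFinite G
  obtain ⟨a, b, c, ha, hb, hc, habc, hk⟩ := eigs hna hχ h3 g
  have h1 : a + b + c = 0 := by
    have := hk 1
    rw [pow_one, hg] at this
    simpa using this.symm
  have h2 := e2 ha hb hc habc
  rw [h1, map_zero] at h2
  have key : ∀ x y z : ℂ, x + y + z = 0 → x * y + x * z + y * z = 0 → x * y * z = 1 → x ^ 3 = 1 := by
    intro x y z e1 e2 e3
    have hz : z = - x - y := by linear_combination e1
    subst hz
    linear_combination e3 - x * e2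
  have ea := key a b c h1 h2 habc
  have eb := key b a c (by linear_combination h1) (by linear_combination h2) (by linear_combination habc)
  have ec := key c a b (by linear_combination h1) (by linear_combination h2) (by linear_combination habc)
  have h4 : χ (g ^ 3) = χ 1 := by rw [hk 3, ea, eb, ec, h3]; norm_num
  have hne : χ ≠ fun _ => 1 := by
    intro h; rw [h] at h3; norm_num at h3
  exact CfsgLib.Exc.simple_faithful hχ hne h4

end CfsgLib.H6Br
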