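import Mathlib
/-!
# Number theory for simple groups of order `4 p^a q^b` and `3 p^a q^b` (helper6)
-/
set_option autoImplicit false
set_option linter.all false
namespace CfsgLib.H6Br

theorem odd_of {p q y : ℕ} (hp2 : p ≠ 2) (hq2 : q ≠ 2) (hy : ∀ r : ℕ, r.Prime → r ∣ y → r = p ∨ r = q) : ¬ 2 ∣ y := by
  intro h
  rcases hy 2 Nat.prime_two h with h | h
  · exact hp2 h.symm
  · exact hq2 h.symm

theorem nt1_aux {p q y : ℕ} (hp : p.Prime) (hq : q.Prime) (hp2 : p ≠ 2) (hq2 : q ≠ 2)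
    (h3 : 3 < y) (hpy : p ∣ y) (hm : ∀ r : ℕ, r.Prime → r ∣ y - 1 → r = 2 ∨ r = p ∨ r = q)
    (hpl : ∀ r : ℕ, r.Prime → r ∣ y + 1 → r = 2 ∨ r = p ∨ r = q) (h4 : y % 4 = 3) (h8 : (y + 1) % 8 = 4) : False := by
  obtain ⟨al, hal⟩ : ∃ k, y - 1 = 2 * k := ⟨(y - 1) / 2, by omega⟩
  obtain ⟨be, hbe⟩ : ∃ k, y + 1 = 4 * k := ⟨(y + 1) / 4, by omega⟩
  have hal1 : al ≠ 1 := by omega
  have hbe1 : be ≠ 1 := by omega
  obtain ⟨r, hr, hra⟩ := Nat.exists_prime_and_dvd hal1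
  obtain ⟨s, hs, hsb⟩ := Nat.exists_prime_and_dvd hbe1
  have hp1 : ¬ p ∣ 1 := by intro h; exact hp.one_lt.ne' (Nat.dvd_one.1 h)
  have hp2' : ¬ p ∣ 2 := by
    intro h; exact hp2 ((Nat.prime_dvd_prime_iff_eq hp Nat.prime_two).1 h)
  have hr1 : r ∣ y - 1 := by rw [hal]; exact hra.mul_left 2
  have hs1 : s ∣ y + 1 := by rw [hbe]; exact hsb.mul_left 4
  have hrq : r = q := by
    rcases hm r hr hr1 with h | h | h
    · exfalso; rw [h] at hra; omega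
    · exfalso
      rw [h] at hr1
      apply hp1
      have := (Nat.dvd_sub_iff_right (by omega) hpy).1 hr1
      exact this
    · exact h
  have hsq : s = q := by
    rcases hpl s hs hs1 with h | h | h
    · exfalso; rw [h] at hsb; omega
    · exfalso
      rw [h] at hs1
      exact hp1 ((Nat.dvd_add_right hpy).1 hs1)
    · exact h
  rw [hrq] at hra
  rw [hsq] at hsb
  have h1 : 2 * be = al + 1 := by omega
  have h2 : q ∣ al + 1 := by rw [← h1]; exact hsb.mul_left 2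
  have h3 : q ∣ 1 := (Nat.dvd_add_right hra).1 h2
  exact hq.one_lt.ne' (Nat.dvd_one.1 h3)

/-- the case of the signs `1, 1, -1` -/
theorem nt1 {p q y : ℕ} (hp : p.Prime) (hq : q.Prime) (hp2 : p ≠ 2) (hq2 : q ≠ 2)
    (h3 : 3 < y) (hy : ∀ r : ℕ, r.Prime → r ∣ y → r = p ∨ r = q) (hm : ∀ r : ℕ, r.Prime → r ∣ y - 1 → r = 2 ∨ r = p ∨ r = q)
    (hpl : ∀ r : ℕ, r.Prime → r ∣ y + 1 → r = 2 ∨ r = p ∨ r = q) (h4 : y % 4 = 3) (h8 : (y + 1) % 8 = 4) : False := by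
  obtain ⟨r, hr, hry⟩ := Nat.exists_prime_and_dvd (show y ≠ 1 by omega)
  rcases hy r hr hry with h | h
  · subst h
    exact nt1_aux hr hq hp2 hq2 h3 hry hm hpl h4 h8
  · subst h
    exact nt1_aux hr hp hq2 hp2 h3 hry (fun r h1 h2 => by rcases hm r h1 h2 with h | h | h <;> simp [h])
      (fun r h1 h2 => by rcases hpl r h1 h2 with h | h | h <;> simp [h]) h4 h8

theorem nt2_aux {p q u v w : ℕ} (hp : p.Prime) (hq : q.Prime) (hp2 : p ≠ 2) (hq2 : q ≠ 2)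
    (hu : 3 ≤ u) (hv : 3 ≤ v) (hw : 3 ≤ w) (hsum : 1 + u = v + w) (hu4 : u % 4 = 1) (hv4 : v % 4 = 3) (hw4 : w % 4 = 3)
    (pu : ∀ r : ℕ, r.Prime → r ∣ u → r = p ∨ r = q) (pv : ∀ r : ℕ, r.Prime → r ∣ v → r = p ∨ r = q)
    (pw : ∀ r : ℕ, r.Prime → r ∣ w → r = p ∨ r = q)
    (mu : ∀ r : ℕ, r.Prime → r ∣ u + 1 → r = 2 ∨ r = p ∨ r = q)
    (mv : ∀ r : ℕ, r.Prime → r ∣ v - 1 → r = 2 ∨ r = p ∨ r = q) (mw : ∀ r : ℕ, r.Prime → r ∣ w - 1 → r = 2 ∨ r = p ∨ r = q)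
    (hpu : p ∣ u) : v = 3 ∧ w = 3 ∧ u = 5 := by
  have hp1 : ¬ p ∣ 1 := by intro h; exact hp.one_lt.ne' (Nat.dvd_one.1 h)
  have hq1 : ¬ q ∣ 1 := by intro h; exact hq.one_lt.ne' (Nat.dvd_one.1 h)
  have hq2' : ¬ q ∣ 2 := by
    intro h; exact hq2 ((Nat.prime_dvd_prime_iff_eq hq Nat.prime_two).1 h)
  have hpu1 : ¬ p ∣ u + 1 := fun h => hp1 ((Nat.dvd_add_right hpu).1 h)
  obtain ⟨k, hk⟩ : ∃ k, u + 1 = 2 * k := ⟨(u + 1) / 2, by omega⟩
  have hk2 : k % 2 = 1 := by omega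
  -- k is a power of q
  have hkq : ∀ {r : ℕ}, r.Prime → r ∣ k → r = q := by
    intro r hr hrk
    rcases mu r hr (by rw [hk]; exact hrk.mul_left 2) with h | h | h
    · exfalso; rw [h] at hrk; omega
    · exfalso; apply hpu1; rw [hk, ← h]; exact hrk.mul_left 2
    · exact h
  have hqk : q ∣ k := by
    obtain ⟨r, hr, hrk⟩ := Nat.exists_prime_and_dvd (show k ≠ 1 by omega)
    rw [← hkq hr hrk]; exact hrk
  have hqu1 : q ∣ u + 1 := by rw [hk]; exact hqk.mul_left 2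
  have hqvw : q ∣ v + w := by rw [← hsum, add_comm]; exact hqu1
  have hqv : q ∣ v := by
    by_contra hqv
    have hqw : ¬ q ∣ w := fun h => hqv ((Nat.dvd_add_left h).1 hqvw)
    obtain ⟨r, hr, hrv⟩ := Nat.exists_prime_and_dvd (show v ≠ 1 by omega)
    obtain ⟨s, hs, hsw⟩ := Nat.exists_prime_and_dvd (show w ≠ 1 by omega)
    have e1 : p ∣ v := by
      rcases pv r hr hrv with h | h
      · rw [← h]; exact hrv
      · exfalso; rw [h] at hrv; exact hqv hrv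
    have e2 : p ∣ w := by
      rcases pw s hs hsw with h | h
      · rw [← h]; exact hsw
      · exfalso; rw [h] at hsw; exact hqw hsw
    have e3 : p ∣ 1 + u := by rw [hsum]; exact dvd_add e1 e2
    rw [add_comm] at e3
    exact hpu1 e3
  have hqw : q ∣ w := (Nat.dvd_add_right hqv).1 hqvw
  -- neither v nor w is divisible by p
  have key : ∀ x : ℕ, 3 ≤ x → x % 4 = 3 → q ∣ x → (∀ r : ℕ, r.Prime → r ∣ x → r = p ∨ r = q) →
      (∀ r : ℕ, r.Prime → r ∣ x - 1 → r = 2 ∨ r = p ∨ r = q) → p ≠ q → ∃ i, x = q ^ i := by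
    intro x hx hx4 hqx px mx hpq
    have hpx : ¬ p ∣ x := by
      intro hpx
      obtain ⟨l, hl⟩ : ∃ l, x - 1 = 2 * l := ⟨(x - 1) / 2, by omega⟩
      by_cases hl1 : l = 1
      · have hx3 : x = 3 := by omega
        rw [hx3] at hpx hqx
        exact hpq (((Nat.prime_dvd_prime_iff_eq hp Nat.prime_three).1 hpx).trans
          ((Nat.prime_dvd_prime_iff_eq hq Nat.prime_three).1 hqx).symm)
      · obtain ⟨r, hr, hrl⟩ := Nat.exists_prime_and_dvd hl1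
        have hrx : r ∣ x - 1 := by rw [hl]; exact hrl.mul_left 2
        rcases mx r hr hrx with h | h | h
        · rw [h] at hrl; omega
        · rw [h] at hrx
          exact hp1 ((Nat.dvd_sub_iff_right (by omega) hpx).1 hrx)
        · rw [h] at hrx
          exact hq1 ((Nat.dvd_sub_iff_right (by omega) hqx).1 hrx)
    refine ⟨_, Nat.eq_prime_pow_of_unique_prime_dvd (by omega) ?_⟩
    intro d hd hdx
    rcases px d hd hdx with h | h
    · exfalso; rw [h] at hdx; exact hpx hdx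
    · exact h
  have hpq : p ≠ q := by
    intro h; rw [← h] at hqu1; exact hpu1 hqu1
  obtain ⟨i, hi⟩ := key v hv hv4 hqv pv mv hpq
  obtain ⟨j, hj⟩ := key w hw hw4 hqw pw mw hpq
  obtain ⟨n, hn⟩ : ∃ n, k = q ^ n := ⟨_, Nat.eq_prime_pow_of_unique_prime_dvd (by omega) hkq⟩
  have hsum2 : q ^ i + q ^ j = 2 * q ^ n := by rw [← hi, ← hj, ← hn, ← hk, ← hsum, add_comm]
  have hlt : ∀ i j : ℕ, q ^ i + q ^ j = 2 * q ^ n → ¬ i < j := by
    intro i j h hij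
    obtain ⟨t, rfl⟩ := Nat.exists_eq_add_of_lt hij
    have h1 : q ^ i * (1 + q ^ (t + 1)) = 2 * q ^ n := by rw [← h]; ring
    have h2 : Nat.Coprime (1 + q ^ (t + 1)) q := by
      have : Nat.Coprime (1 + q * q ^ t) q := by simp
      rw [pow_succ, mul_comm (q ^ t)]; exact this
    have h3 : (1 + q ^ (t + 1)) ∣ 2 * q ^ n := ⟨q ^ i, by rw [← h1]; ring⟩
    have h4 : (1 + q ^ (t + 1)) ∣ 2 := (h2.pow_right n).dvd_of_dvd_mul_right h3
    have h5 := Nat.le_of_dvd (by norm_num) h4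
    have h6 : q ≤ q ^ (t + 1) := Nat.le_self_pow (by omega) q
    have h7 := hq.two_le
    omega
  have hij : i = j := by
    rcases lt_trichotomy i j with h | h | h
    · exact absurd h (hlt i j hsum2)
    · exact h
    · exact absurd h (hlt j i (by rw [← hsum2]; ring))
  have hvw : v = w := by rw [hi, hj, hij]
  obtain ⟨l, hl⟩ : ∃ l, v - 1 = 2 * l := ⟨(v - 1) / 2, by omega⟩
  have hl1 : l = 1 := by
    by_contra hl1
    obtain ⟨r, hr, hrl⟩ := Nat.exists_prime_and_dvd hl1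
    have hrx : r ∣ v - 1 := by rw [hl]; exact hrl.mul_left 2
    rcases mv r hr hrx with h | h | h
    · rw [h] at hrl; omega
    · rw [h] at hrl
      have h1 : u = 4 * l + 1 := by omega
      rw [h1] at hpu
      exact hp1 ((Nat.dvd_add_right (hrl.mul_left 4)).1 hpu)
    · rw [h] at hrx
      exact hq1 ((Nat.dvd_sub_iff_right (by omega) hqv).1 hrx)
  refine ⟨?_, ?_, ?_⟩ <;> omega

/-- the case of the signs `1, -1, -1` -/
theorem nt2 {p q u v w : ℕ} (hp : p.Prime) (hq : q.Prime) (hp2 : p ≠ 2) (hq2 : q ≠ 2)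
    (hu : 3 ≤ u) (hv : 3 ≤ v) (hw : 3 ≤ w) (hsum : 1 + u = v + w) (hu4 : u % 4 = 1) (hv4 : v % 4 = 3) (hw4 : w % 4 = 3)
    (pu : ∀ r : ℕ, r.Prime → r ∣ u → r = p ∨ r = q) (pv : ∀ r : ℕ, r.Prime → r ∣ v → r = p ∨ r = q)
    (pw : ∀ r : ℕ, r.Prime → r ∣ w → r = p ∨ r = q)
    (mu : ∀ r : ℕ, r.Prime → r ∣ u + 1 → r = 2 ∨ r = p ∨ r = q)
    (mv : ∀ r : ℕ, r.Prime → r ∣ v - 1 → r = 2 ∨ r = p ∨ r = q) (mw : ∀ r : ℕ, r.Prime → r ∣ w - 1 → r = 2 ∨ r = p ∨ r = q) :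
    v = 3 ∧ w = 3 ∧ u = 5 := by
  obtain ⟨r, hr, hru⟩ := Nat.exists_prime_and_dvd (show u ≠ 1 by omega)
  rcases pu r hr hru with h | h
  · subst h
    exact nt2_aux hr hq hp2 hq2 hu hv hw hsum hu4 hv4 hw4 pu pv pw mu mv mw hru
  · subst h
    have s1 : ∀ x : ℕ, (∀ t : ℕ, t.Prime → t ∣ x → t = p ∨ t = r) → (∀ t : ℕ, t.Prime → t ∣ x → t = r ∨ t = p) :=
      fun x hx t h1 h2 => (hx t h1 h2).symm
    have s2 : ∀ x : ℕ, (∀ t : ℕ, t.Prime → t ∣ x → t = 2 ∨ t = p ∨ t = r) → (∀ t : ℕ, t.Prime → t ∣ x → t = 2 ∨ t = r ∨ t = p) := by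
      intro x hx t h1 h2
      rcases hx t h1 h2 with h | h | h <;> simp [h]
    exact nt2_aux hr hp hq2 hp2 hu hv hw hsum hu4 hv4 hw4 (s1 _ pu) (s1 _ pv) (s1 _ pw) (s2 _ mu) (s2 _ mv) (s2 _ mw) hru

end CfsgLib.H6Br
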