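import Cfsg.Statements.S4479
import Cfsg.Agent.LibKleinOrd
import Cfsg.Agent.LibPB20

set_option autoImplicit false
set_option linter.all false
open Cfsg

namespace Cfsg.Agent.S4479

open CfsgLib.KleinOrd CfsgLib.CharBasic
open scoped ComplexConjugate

/-- An order formula from the principal 2-block. Let G be a finite group of order 4·g₀ with g₀ odd having no normal 2-complement (no normal subgroup of order g₀); let P be a Sylow 2-subgroup, J an involution of P, and fix a maximal ideal M of the algebraic integers containing 2. Suppose the principal 2-block consists of the principal character and three further distinct characters χ₁, χ₂, χ₃ of degrees x₁, x₂, x₃, with χ_i(J) = ε_i = ±1. Then, writing c(J) and c(P) for the orders of the centralizers of J and of P, the order of G equals 8·α·c(J)³/c(P)² with α = x₁x₂x₃ / ((x₁ + ε₁)(x₂ + ε₂)(x₃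 + ε₃)). -/
theorem result {G : Type*} [Group G] [Finite G] (M : Ideal Cfsg.AlgInt) (hM : Cfsg.IsPModular 2 M) (g₀ : ℕ) (hg₀ : Odd g₀) (hG : Nat.card G = 4 * g₀) (hnc : ¬ ∃ N : Subgroup G, N.Normal ∧ Nat.card N = g₀) (P : Sylow 2 G) (J : G) (hJ : J ∈ (P : Subgroup G)) (hJ2 : orderOf J = 2) (χ₁ χ₂ χ₃ : Cfsg.IrrCharacter G) (ε₁ ε₂ ε₃ : ℤ) (hB : Cfsg.principalBlock M G = {χ : Cfsg.IrrCharacter G | (χ : G → ℂ) = (fun _ => 1) ∨ χ = χ₁ ∨ χ = χ₂ ∨ χ = χ₃}) (hdist : (χ₁ : G → ℂ) ≠ (fun _ => 1) ∧ (χ₂ : G → ℂ) ≠ (fun _ => 1) ∧ (χ₃ : G → ℂ) ≠ (fun _ => 1) ∧ χ₁ ≠ χ₂ ∧ χ₁ ≠ χ₃ ∧ χ₂ ≠ χ₃) (hε : (ε₁ = 1 ∨ ε₁ = -1) ∧ (ε₂ = 1 ∨ ε₂ = -1) ∧ (ε₃ = 1 ∨ ε₃ = -1)) (hval : (χ₁ : G → ℂ) J = ε₁ ∧ (χ₂ : G → ℂ) J = ε₂ ∧ (χ₃ : G → ℂ) J = ε₃) : (Nat.card G : ℚ) = 8 * (((Cfsg.charDegree (χ₁ : G → ℂ) : ℚ) * Cfsg.charDegree (χ₂ : G → ℂ) * Cfsg.charDegree (χ₃ : G → ℂ)) /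 ((Cfsg.charDegree (χ₁ : G → ℂ) + ε₁) * (Cfsg.charDegree (χ₂ : G → ℂ) + ε₂) * (Cfsg.charDegree (χ₃ : G → ℂ) + ε₃))) * (Nat.card (Subgroup.centralizer ({J} : Set G)) : ℚ) ^ 3 / (Nat.card (Subgroup.centralizer ((P : Subgroup G) : Set G)) : ℚ) ^ 2 := by
  classical
  haveI := Fintype.ofFinite G
  haveI : Fact (Nat.Prime 2) := ⟨Nat.prime_two⟩
  have h := fusion hg₀ hG hnc P
  have hcG : (Nat.card G : ℂ) ≠ 0 := by exact_mod_cast Nat.card_pos.ne'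
  have hcJ : (Nat.card (Subgroup.centralizer ({J} : Set G)) : ℂ) ≠ 0 := by exact_mod_cast Nat.card_pos.ne'
  have hcP : (Nat.card (Subgroup.centralizer ((P : Subgroup G) : Set G)) : ℂ) ≠ 0 := by exact_mod_cast Nat.card_pos.ne'
  have hof := order_formula h hJ2 hJ hM
  rw [finsum_four χ₁ χ₂ χ₃ hB hdist] at hof
  have horth : ∑ᶠ χ ∈ principalBlock M G, (χ : G → ℂ) 1 * conj ((χ : G → ℂ) J) = 0 :=
    CfsgLib.BlockOrth.weak_block_orth hM CfsgLib.PB20.isPBlock_principal (by rw [orderOf_one]; norm_num) (by rw [hJ2])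
  rw [finsum_four χ₁ χ₂ χ₃ hB hdist] at horth
  simp only [CfsgLib.Klein.one_apply, hval.1, hval.2.1, hval.2.2, map_one, map_intCast, CfsgLib.CharInt.irr_one_eq_charDegree χ₁.2,
    CfsgLib.CharInt.irr_one_eq_charDegree χ₂.2, CfsgLib.CharInt.irr_one_eq_charDegree χ₃.2] at hof horth
  have p1 := CfsgLib.CharInt.irr_charDegree_pos χ₁.2
  have p2 := CfsgLib.CharInt.irr_charDegree_pos χ₂.2
  have p3 := CfsgLib.CharInt.irr_charDegree_pos χ₃.2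
  set x₁ := charDegree (χ₁ : G → ℂ)
  set x₂ := charDegree (χ₂ : G → ℂ)
  set x₃ := charDegree (χ₃ : G → ℂ)
  have e1 : (x₁ : ℂ) ≠ 0 := by exact_mod_cast p1.ne'
  have e2 : (x₂ : ℂ) ≠ 0 := by exact_mod_cast p2.ne'
  have e3 : (x₃ : ℂ) ≠ 0 := by exact_mod_cast p3.ne'
  have q1 : (ε₁ : ℂ) ^ 2 = 1 := by rcases hε.1 with rfl | rfl <;> norm_num
  have q2 : (ε₂ : ℂ) ^ 2 = 1 := by rcases hε.2.1 with rfl | rfl <;> norm_num
  have q3 : (ε₃ : ℂ) ^ 2 = 1 := by rcases hε.2.2 with rfl | rfl <;> norm_num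
  have hsum : (1 : ℂ) ^ 3 / 1 + ((ε₁ : ℂ) ^ 3 / x₁ + ((ε₂ : ℂ) ^ 3 / x₂ + (ε₃ : ℂ) ^ 3 / x₃)) =
      (x₁ + ε₁) * (x₂ + ε₂) * (x₃ + ε₃) / (x₁ * x₂ * x₃) := by
    have r1 : (ε₁ : ℂ) ^ 3 = ε₁ := by rw [pow_succ, q1, one_mul]
    have r2 : (ε₂ : ℂ) ^ 3 = ε₂ := by rw [pow_succ, q2, one_mul]
    have r3 : (ε₃ : ℂ) ^ 3 = ε₃ := by rw [pow_succ, q3, one_mul]
    rw [r1, r2, r3]
    field_simp
    linear_combination (-(ε₁ : ℂ) * ε₂ * ε₃) * horth + (x₁ * ε₂ * ε₃ : ℂ) * q1 + (x₂ * ε₁ * ε₃ : ℂ) * q2 + (x₃ * ε₁ * ε₂ : ℂ) * q3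
  rw [hsum] at hof
  have hne : ((x₁ : ℂ) + ε₁) * (x₂ + ε₂) * (x₃ + ε₃) ≠ 0 := by
    intro h0
    rw [h0, zero_div, mul_zero, zero_mul] at hof
    exact (mul_ne_zero (by norm_num) (pow_ne_zero 3 hcJ)) hof.symm
  have hfin : (Nat.card G : ℂ) = 8 * ((x₁ * x₂ * x₃) / ((x₁ + ε₁) * (x₂ + ε₂) * (x₃ + ε₃))) *
      (Nat.card (Subgroup.centralizer ({J} : Set G)) : ℂ) ^ 3 / (Nat.card (Subgroup.centralizer ((P : Subgroup G) : Set G)) : ℂ) ^ 2 := by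
    rw [eq_div_iff (pow_ne_zero 2 hcP)]
    rw [mul_div_assoc', div_mul_eq_mul_div, eq_div_iff hne]
    rw [mul_div_assoc', div_mul_eq_mul_div, div_eq_iff (mul_ne_zero (mul_ne_zero e1 e2) e3)] at hof
    linear_combination hof
  exact_mod_cast hfin

end Cfsg.Agent.S4479
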