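import Cfsg.Statements.S4480
import Cfsg.Agent.LibKleinOrd
import Cfsg.Agent.LibPB20
import Cfsg.Agent.LibPBNormal
import Cfsg.Agent.LibBlockReal

set_option autoImplicit false
set_option linter.all false
open Cfsg

namespace Cfsg.Agent.S4480

open CfsgLib.KleinOrd CfsgLib.CharBasic
open scoped ComplexConjugate

/-- Same setting as the Klein-four order formula: G of order 4·g₀ (g₀ odd) with no normal 2-complement, P a Sylow 2-subgroup, J an involution of P, M over 2, principal 2-block {1, χ₁, χ₂, χ₃} with χ_i(J) = ε_i = ±1. Suppose ε₁ε₂ε₃ = −1 and ε₃ = −1, and put q = x₃ = χ₃(1). Then there is a natural number m with 4·c(J) = m·c(P)·(q + 1), and the order of G equals (m³·c(P)/4)·(q³ − q)/2, that is 8·#G = m³·c(P)·(q³ − q). -/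
theorem result {G : Type*} [Group G] [Finite G] (M : Ideal Cfsg.AlgInt) (hM : Cfsg.IsPModular 2 M) (g₀ : ℕ) (hg₀ : Odd g₀) (hG : Nat.card G = 4 * g₀) (hnc : ¬ ∃ N : Subgroup G, N.Normal ∧ Nat.card N = g₀) (P : Sylow 2 G) (J : G) (hJ : J ∈ (P : Subgroup G)) (hJ2 : orderOf J = 2) (χ₁ χ₂ χ₃ : Cfsg.IrrCharacter G) (ε₁ ε₂ ε₃ : ℤ) (hB : Cfsg.principalBlock M G = {χ : Cfsg.IrrCharacter G | (χ : G → ℂ) = (fun _ => 1) ∨ χ = χ₁ ∨ χ = χ₂ ∨ χ = χ₃}) (hdist : (χ₁ : G → ℂ) ≠ (fun _ => 1) ∧ (χ₂ : G → ℂ) ≠ (fun _ => 1) ∧ (χ₃ : G → ℂ) ≠ (fun _ => 1) ∧ χ₁ ≠ χ₂ ∧ χ₁ ≠ χ₃ ∧ χ₂ ≠ χ₃) (hε : (ε₁ = 1 ∨ ε₁ = -1) ∧ (ε₂ = 1 ∨ ε₂ = -1) ∧ (ε₃ = 1 ∨ ε₃ = -1)) (hval : (χ₁ : G → ℂ) J = ε₁ ∧ (χ₂ : G → ℂ) J = ε₂ ∧ (χ₃ : G → ℂ) J = ε₃) (hprod : ε₁ * ε₂ * ε₃ = -1) (hε₃ : ε₃ = -1) : ∃ m : ℕ, 4 * Nat.card (Subgroup.centralizer ({J} : Set G)) = m * Nat.card (Subgroup.centralizer ((P : Subgroup G) : Set G)) *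 (Cfsg.charDegree (χ₃ : G → ℂ) + 1) ∧ 8 * Nat.card G = m ^ 3 * Nat.card (Subgroup.centralizer ((P : Subgroup G) : Set G)) * (Cfsg.charDegree (χ₃ : G → ℂ) ^ 3 - Cfsg.charDegree (χ₃ : G → ℂ)) := by
  classical
  haveI := Fintype.ofFinite G
  haveI : Fact (Nat.Prime 2) := ⟨Nat.prime_two⟩
  have h := fusion hg₀ hG hnc P
  have hcG : (Nat.card G : ℂ) ≠ 0 := by exact_mod_cast Nat.card_pos.ne'
  have hcJ : (Nat.card (Subgroup.centralizer ({J} : Set G)) : ℂ) ≠ 0 := by exact_mod_cast Nat.card_pos.ne'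
  have hcP : (Nat.card (Subgroup.centralizer ((P : Subgroup G) : Set G)) : ℂ) ≠ 0 := by exact_mod_cast Nat.card_pos.ne'
  have hof := order_formula h hJ2 hJ hM
  rw [finsum_four χ₁ χ₂ χ₃ hB hdist] at hof
  have horth : ∑ᶠ χ ∈ principalBlock M G, (χ : G → ℂ) 1 * conj ((χ : G → ℂ) J) = 0 :=
    CfsgLib.BlockOrth.weak_block_orth hM CfsgLib.PB20.isPBlock_principal (by rw [orderOf_one]; norm_num) (by rw [hJ2])
  rw [finsum_four χ₁ χ₂ χ₃ hB hdist] at horth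
  simp only [CfsgLib.Klein.one_apply, hval.1, hval.2.1, hval.2.2, map_one, map_intCast, CfsgLib.CharInt.irr_one_eq_charDegree χ₁.2,
    CfsgLib.CharInt.irr_one_eq_charDegree χ₂.2, CfsgLib.CharInt.irr_one_eq_charDegree χ₃.2] at hof horth
  have p1 := CfsgLib.CharInt.irr_charDegree_pos χ₁.2
  have p2 := CfsgLib.CharInt.irr_charDegree_pos χ₂.2
  have p3 := CfsgLib.CharInt.irr_charDegree_pos χ₃.2
  set x₁ := charDegree (χ₁ : G → ℂ)
  set x₂ := charDegree (χ₂ : G → ℂ)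
  set x₃ := charDegree (χ₃ : G → ℂ)
  have e1 : (x₁ : ℂ) ≠ 0 := by exact_mod_cast p1.ne'
  have e2 : (x₂ : ℂ) ≠ 0 := by exact_mod_cast p2.ne'
  have e3 : (x₃ : ℂ) ≠ 0 := by exact_mod_cast p3.ne'
  have q1 : (ε₁ : ℂ) ^ 2 = 1 := by rcases hε.1 with rfl | rfl <;> norm_num
  have q2 : (ε₂ : ℂ) ^ 2 = 1 := by rcases hε.2.1 with rfl | rfl <;> norm_num
  have q3 : (ε₃ : ℂ) ^ 2 = 1 := by rcases hε.2.2 with rfl | rfl <;> norm_num
  have hrel : (1 : ℤ) + ε₁ * x₁ + ε₂ * x₂ + ε₃ * x₃ = 0 := by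
    have : ((1 : ℤ) + ε₁ * x₁ + ε₂ * x₂ + ε₃ * x₃ : ℂ) = 0 := by
      push_cast
      linear_combination horth
    exact_mod_cast this
  have hε12 : ε₁ = 1 ∧ ε₂ = 1 := by
    rw [hε₃] at hprod
    rcases hε.1 with h1 | h1 <;> rcases hε.2.1 with h2 | h2 <;> rw [h1, h2] at hprod
    · exact ⟨h1, h2⟩
    · norm_num at hprod
    · norm_num at hprod
    · exfalso; rw [h1, h2, hε₃] at hrel; omega
  obtain ⟨h1, h2⟩ := hε12
  subst h1 h2 hε₃
  have hval' := hval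
  push_cast at hval'
  -- parity
  obtain ⟨ζ, δ, hinj, hne, hδ, hBm, hvalm, hrelm⟩ := h.main hM
  have hodd : ∀ χ ∈ principalBlock M G, (χ : G → ℂ) ≠ (fun _ => 1) → Odd (charDegree (χ : G → ℂ)) := by
    intro χ hχ hχ1
    rcases (hBm χ).mp hχ with h3 | ⟨i, h3⟩
    · exact absurd (by rw [h3]; rfl) hχ1
    · have h4 := h.mod_four (χ := χ) (δ := δ i) (by rw [h3]; exact hvalm i)
      rcases hδ i with h5 | h5 <;> rw [h5] at h4 <;> rw [← Int.odd_coe_nat] <;> [skip; skip]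
      · obtain ⟨r, hr⟩ := h4
        exact ⟨2 * r, by omega⟩
      · obtain ⟨r, hr⟩ := h4
        exact ⟨2 * r - 1, by omega⟩
  have hm1 : χ₁ ∈ principalBlock M G := by rw [hB]; exact Or.inr (Or.inl rfl)
  have hm2 : χ₂ ∈ principalBlock M G := by rw [hB]; exact Or.inr (Or.inr (Or.inl rfl))
  have hm3 : χ₃ ∈ principalBlock M G := by rw [hB]; exact Or.inr (Or.inr (Or.inr rfl))
  let cb : IrrCharacter G → IrrCharacter G := fun χ => ⟨_, isIrrCharacter_conj χ.2⟩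
  have hcb : ∀ χ g, (cb χ : G → ℂ) g = conj ((χ : G → ℂ) g) := fun χ g => rfl
  have hcbB : ∀ χ ∈ principalBlock M G, cb χ ∈ principalBlock M G := by
    intro χ hχ
    refine (CfsgLib.PBNormal.principal_stable (M := M) (fun g : G => g⁻¹) inv_surjective (fun g => CfsgLib.BlockReal.centralizer_inv g) inv_one (ψ := χ) (ψ' := cb χ) (fun g => ?_)).mpr hχ
    rw [hcb, char_inv_eq_conj (irr_isCharacter χ.2)]
  have hcc : ∀ χ, cb (cb χ) = χ := fun χ => Subtype.ext (funext fun g => Complex.conj_conj _)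
  have hcb1 : ∀ χ : IrrCharacter G, (χ : G → ℂ) ≠ (fun _ => 1) → (cb χ : G → ℂ) ≠ (fun _ => 1) := by
    intro χ hχ h3
    apply hχ
    rw [← hcc χ]
    funext g
    rw [hcb, h3, map_one]
  have hcbJ1 : cb χ₁ ≠ χ₃ := by
    intro h3
    have h4 := congrArg (fun χ : IrrCharacter G => (χ : G → ℂ) J) h3
    simp only [hcb] at h4
    rw [hval'.1, hval'.2.2, map_one] at h4
    norm_num at h4
  have hcbJ2 : cb χ₂ ≠ χ₃ := by
    intro h3
    have h4 := congrArg (fun χ : IrrCharacter G => (χ : G → ℂ) J) h3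
    simp only [hcb] at h4
    rw [hval'.2.1, hval'.2.2, map_one] at h4
    norm_num at h4
  have hcases : ∀ χ ∈ principalBlock M G, (χ : G → ℂ) ≠ (fun _ => 1) → χ = χ₁ ∨ χ = χ₂ ∨ χ = χ₃ := by
    intro χ hχ hχ1
    rw [hB] at hχ
    exact hχ.resolve_left hχ1
  have hrealiff : ∀ χ : IrrCharacter G, cb χ = χ → ∀ g, ((χ : G → ℂ) g).im = 0 := by
    intro χ h3 g
    have h4 := congrArg (fun χ : IrrCharacter G => (χ : G → ℂ) g) h3
    exact Complex.conj_eq_iff_im.mp h4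
  have hfsr := fs_relation h hJ2 hM
  rw [finsum_four χ₁ χ₂ χ₃ hB hdist] at hfsr
  have hfs1 : CfsgLib.FS.fsInd (CfsgLib.Klein.one G : G → ℂ) = 1 := CfsgLib.FS.fsInd_one
  rw [hfs1, CfsgLib.Klein.one_apply, hval'.1, hval'.2.1, hval'.2.2] at hfsr
  have hc12 : cb χ₁ = χ₂ := by
    rcases hcases _ (hcbB χ₁ hm1) (hcb1 χ₁ hdist.1) with h3 | h3 | h3
    · exfalso
      have hν1 := fs_odd χ₁.2 (CfsgLib.CharInt.irr_one_eq_charDegree χ₁.2) (hodd χ₁ hm1 hdist.1) (hrealiff χ₁ h3)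
      rcases hcases _ (hcbB χ₂ hm2) (hcb1 χ₂ hdist.2.1) with h4 | h4 | h4
      · apply hdist.2.2.2.1
        rw [← h3, ← h4, hcc]
      · have hν2 := fs_odd χ₂.2 (CfsgLib.CharInt.irr_one_eq_charDegree χ₂.2) (hodd χ₂ hm2 hdist.2.1) (hrealiff χ₂ h4)
        rw [hν1, hν2] at hfsr
        have hν3 : CfsgLib.FS.fsInd (χ₃ : G → ℂ) = 3 := by linear_combination -hfsr
        rcases CfsgLib.FS.fs_trichotomy χ₃.2 with h5 | h5 | h5 <;> rw [h5] at hν3 <;> norm_num at hν3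
      · exact hcbJ2 h4
    · exact h3
    · exact absurd h3 hcbJ1
  have hx12 : x₂ = x₁ := by
    have h3 := congrArg (fun χ : IrrCharacter G => (χ : G → ℂ) 1) hc12
    simp only [hcb] at h3
    rw [CfsgLib.CharInt.irr_one_eq_charDegree χ₁.2, CfsgLib.CharInt.irr_one_eq_charDegree χ₂.2, map_natCast] at h3
    exact_mod_cast h3.symm
  have hx3 : x₃ = 2 * x₁ + 1 := by rw [hx12] at hrel; omega
  -- divisibilities
  set k := (Subgroup.centralizer ({J} : Set G)).index with hk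
  have hkc : k * Nat.card (Subgroup.centralizer ({J} : Set G)) = Nat.card G := by rw [mul_comm]; exact Subgroup.card_mul_index _
  have hdiv : ∀ (χ : IrrCharacter G) (d : ℤ), (d = 1 ∨ d = -1) → (χ : G → ℂ) J = d → charDegree (χ : G → ℂ) ∣ k := by
    intro χ d hd hχJ
    have h3 := CfsgLib.CharInt.centralChar_isIntegral χ.2 J
    have p := CfsgLib.CharInt.irr_charDegree_pos χ.2
    have hz : ((charDegree (χ : G → ℂ) : ℕ) : ℂ) ≠ 0 := by exact_mod_cast p.ne'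
    have h4 : centralChar (χ : G → ℂ) J = (k : ℂ) * d / (charDegree (χ : G → ℂ) : ℂ) := by
      unfold centralChar
      rw [hχJ, CfsgLib.CharInt.irr_one_eq_charDegree χ.2]
    rw [h4] at h3
    obtain ⟨m, hm⟩ := CfsgLib.GalChar.exists_int_of_fixed h3 (fun σ => by rw [map_div₀, map_mul, map_natCast, map_natCast, map_intCast])
    rw [div_eq_iff hz] at hm
    have h5 : (k : ℤ) * d = m * (charDegree (χ : G → ℂ) : ℤ) := by exact_mod_cast hm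
    rw [← Int.natCast_dvd_natCast]
    rcases hd with rfl | rfl
    · exact ⟨m, by linarith⟩
    · exact ⟨-m, by linarith⟩
  have hd1 : x₁ ∣ k := hdiv χ₁ 1 (Or.inl rfl) hval.1
  have hd3 : x₃ ∣ k := hdiv χ₃ (-1) (Or.inr rfl) hval.2.2
  have hcop : Nat.Coprime x₁ x₃ := by
    rw [hx3]
    simp
  obtain ⟨j, hj⟩ := hcop.mul_dvd_of_dvd_of_dvd hd1 hd3
  have hPJ : Subgroup.centralizer ((P : Subgroup G) : Set G) ≤ Subgroup.centralizer ({J} : Set G) := by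
    apply Subgroup.centralizer_le
    intro y hy
    rw [Set.mem_singleton_iff.mp hy]
    exact hJ
  obtain ⟨n, hn⟩ := Subgroup.card_dvd_of_le hPJ
  set c := Nat.card (Subgroup.centralizer ({J} : Set G)) with hc
  set d := Nat.card (Subgroup.centralizer ((P : Subgroup G) : Set G)) with hd
  have hmain : j * (x₁ + 1) ^ 2 = (2 * n) ^ 2 := by
    have h3 : (j : ℂ) * (x₁ + 1) ^ 2 = (2 * n) ^ 2 := by
      rw [← hkc, hj, hn, hx3, hx12] at hof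
      push_cast at hof
      have e4 : ((2 : ℂ) * x₁ + 1) ≠ 0 := by
        have : ((2 * x₁ + 1 : ℕ) : ℂ) ≠ 0 := by exact_mod_cast (by omega : 2 * x₁ + 1 ≠ 0)
        push_cast at this; exact this
      rw [hn] at hcJ
      push_cast at hcJ
      have e5 : (n : ℂ) ≠ 0 := right_ne_zero_of_mul hcJ
      have e6 : (1 : ℂ) ^ 3 / 1 + (1 ^ 3 / (x₁ : ℂ) + (1 ^ 3 / (x₁ : ℂ) + (-1) ^ 3 / (2 * (x₁ : ℂ) + 1))) =
          2 * (x₁ + 1) ^ 2 / (x₁ * (2 * x₁ + 1)) := by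
        rw [eq_div_iff (mul_ne_zero e1 e4)]
        have e7 : (x₁ : ℂ)⁻¹ * x₁ = 1 := inv_mul_cancel₀ e1
        have e8 : (2 * (x₁ : ℂ) + 1)⁻¹ * (2 * x₁ + 1) = 1 := inv_mul_cancel₀ e4
        rw [div_eq_mul_inv, div_eq_mul_inv, div_eq_mul_inv]
        linear_combination (2 * (2 * (x₁ : ℂ) + 1)) * e7 - (x₁ : ℂ) * e8
      rw [e6] at hof
      have e9 : (x₁ : ℂ) * (2 * x₁ + 1) * (2 * (x₁ + 1) ^ 2 / (x₁ * (2 * x₁ + 1))) = 2 * (x₁ + 1) ^ 2 :=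
        mul_div_cancel₀ _ (mul_ne_zero e1 e4)
      have hd0 : (d : ℂ) ≠ 0 := left_ne_zero_of_mul hcJ
      have e10 : (d : ℂ) ^ 3 * n ≠ 0 := mul_ne_zero (pow_ne_zero 3 hd0) e5
      apply mul_left_cancel₀ e10
      linear_combination (1 / 2 : ℂ) * hof - (1 / 2 : ℂ) * (j : ℂ) * d ^ 3 * n * e9
    exact_mod_cast h3
  have hdv : (x₁ + 1) ∣ 2 * n := by
    rw [← Nat.pow_dvd_pow_iff (n := 2) (by norm_num)]
    exact ⟨j, by rw [← hmain]; ring⟩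
  obtain ⟨m, hm⟩ := hdv
  have hjm : j = m ^ 2 := by
    rw [hm] at hmain
    have : (x₁ + 1) ^ 2 ≠ 0 := by positivity
    apply Nat.eq_of_mul_eq_mul_right (Nat.pos_of_ne_zero this)
    rw [hmain]; ring
  refine ⟨m, ?_, ?_⟩
  · rw [hn, hx3]
    calc 4 * (d * n) = 2 * d * (2 * n) := by ring
      _ = m * d * (2 * x₁ + 1 + 1) := by rw [hm]; ring
  · have h3 : x₃ ^ 3 - x₃ = 4 * x₁ * x₃ * (x₁ + 1) := by
      apply Nat.sub_eq_of_eq_add
      rw [hx3]; ring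
    rw [h3, ← hkc, hj, hn, hjm]
    calc 8 * (x₁ * x₃ * m ^ 2 * (d * n)) = 4 * x₁ * x₃ * m ^ 2 * d * (2 * n) := by ring
      _ = m ^ 3 * d * (4 * x₁ * x₃ * (x₁ + 1)) := by rw [hm]; ring

end Cfsg.Agent.S4480
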