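import Cfsg.Agent.LibH6BrA
import Cfsg.Agent.LibH6BrB
import Cfsg.Agent.LibDZ19
import Cfsg.Agent.S0144
import Cfsg.Agent.S4480
import Cfsg.Agent.S4479
import Cfsg.Agent.LibDkB29
/-!
# Simple groups of order `4 p^a q^b` (helper6)
-/
set_option autoImplicit false
set_option linter.all false
open Cfsg CfsgLib.CharBasic CfsgLib.CharInt
open scoped ComplexConjugate
namespace CfsgLib.H6Br

universe u
variable {G : Type u} [Group G] [Finite G]

theorem not_two_primes [IsSimpleGroup G] (hna : ∃ x y : G, x * y ≠ y * x) {p q a b : ℕ} (hp : p.Prime) (hq : q.Prime) :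
    Nat.card G ≠ p ^ a * q ^ b := by
  intro h
  have h1 := Cfsg.Agent.S0144.result p q a b hp hq h
  obtain ⟨x, y, hxy⟩ := hna
  exact hxy (IsSimpleGroup.comm_iff_isSolvable.mpr h1 x y)

theorem deg_ge_three [IsSimpleGroup G] (hna : ∃ x y : G, x * y ≠ y * x) (χ : IrrCharacter G) (hne : (χ : G → ℂ) ≠ fun _ => 1)
    (hodd : charDegree (χ : G → ℂ) % 2 = 1) : 3 ≤ charDegree (χ : G → ℂ) := by
  haveI := Fintype.ofFinite G
  by_contra h
  have h1 : charDegree (χ : G → ℂ) = 1 := by omega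
  apply hne
  apply CfsgLib.BlkSmall.linear_trivial hna χ
  rw [irr_one_eq_charDegree χ.2, h1]; norm_num

/-- elements of even order are involutions and the Sylow 2-subgroup is a four-group: the centralizer of an involution has order 4 -/
theorem cent_card {g₀ : ℕ} (hg₀ : Odd g₀) (hG : Nat.card G = 4 * g₀) (hsq : ∀ g : G, 2 ∣ orderOf g → g ^ 2 = 1)
    {J : G} (hJ : orderOf J = 2) (P : Sylow 2 G) (hcP : Nat.card (P : Subgroup G) = 4)
    (hJP : (P : Subgroup G) ≤ Subgroup.centralizer ({J} : Set G)) :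
    Nat.card (Subgroup.centralizer ({J} : Set G)) = 4 := by
  haveI : Fact (Nat.Prime 2) := ⟨Nat.prime_two⟩
  have h1 : ∀ w ∈ Subgroup.centralizer ({J} : Set G), w ^ 2 = 1 := by
    intro w hw
    have hcomm : Commute J w := (Subgroup.mem_centralizer_singleton_iff.1 hw).symm
    by_cases h2 : 2 ∣ orderOf w
    · exact hsq w h2
    · have h3 : Nat.Coprime (orderOf J) (orderOf w) := by
        rw [hJ]; exact (Nat.Prime.coprime_iff_not_dvd Nat.prime_two).2 h2
      have h4 : orderOf (J * w) = 2 * orderOf w := by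
        rw [hcomm.orderOf_mul_eq_mul_orderOf_of_coprime h3, hJ]
      have h5 := hsq (J * w) (by rw [h4]; exact dvd_mul_right _ _)
      rw [hcomm.mul_pow, ← hJ, pow_orderOf_eq_one, one_mul, hJ] at h5
      exact h5
  have h2 : IsPGroup 2 (Subgroup.centralizer ({J} : Set G)) := by
    intro w
    refine ⟨1, ?_⟩
    rw [pow_one]
    exact Subtype.ext (h1 w w.2)
  obtain ⟨k, hk⟩ := IsPGroup.iff_card.1 h2
  have h3 : 4 ∣ Nat.card (Subgroup.centralizer ({J} : Set G)) := by
    rw [← hcP]; exact Subgroup.card_dvd_of_le hJP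
  have h4 : Nat.card (Subgroup.centralizer ({J} : Set G)) ∣ 4 * g₀ := by
    rw [← hG]; exact Subgroup.card_subgroup_dvd_card _
  have h5 : Nat.Coprime (Nat.card (Subgroup.centralizer ({J} : Set G))) g₀ := by
    rw [hk]
    exact Nat.Coprime.pow_left k (Nat.coprime_two_left.2 hg₀)
  exact Nat.dvd_antisymm (h5.dvd_of_dvd_mul_right h4) h3

/-- **Simple groups of order `4 p^a q^b`.** -/
theorem part1 [IsSimpleGroup G] (hna : ∃ x y : G, x * y ≠ y * x) {p q a b : ℕ} (hp : p.Prime) (hq : q.Prime) (hpq : p ≠ q)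
    (hG : Nat.card G = 4 * p ^ a * q ^ b) : Nonempty (G ≃* alternatingGroup (Fin 5)) := by
  classical
  haveI := Fintype.ofFinite G
  haveI : Fact (Nat.Prime 2) := ⟨Nat.prime_two⟩
  have hp2 : p ≠ 2 := by
    intro h
    apply not_two_primes hna (a := a + 2) (b := b) Nat.prime_two hq
    rw [hG, h]; ring
  have hq2 : q ≠ 2 := by
    intro h
    apply not_two_primes hna (a := b + 2) (b := a) Nat.prime_two hp
    rw [hG, h]; ring
  have ha : 1 ≤ a := by
    by_contra h
    apply not_two_primes hna (a := 2) (b := b) Nat.prime_two hq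
    have : a = 0 := by omega
    rw [hG, this]; norm_num
  have hb : 1 ≤ b := by
    by_contra h
    apply not_two_primes hna (a := 2) (b := a) Nat.prime_two hp
    have : b = 0 := by omega
    rw [hG, this]; norm_num
  set g₀ := p ^ a * q ^ b with hg0
  have hG' : Nat.card G = 4 * g₀ := by rw [hG, hg0]; ring
  have hodd : Odd g₀ := by
    rw [hg0]
    exact ((hp.odd_of_ne_two hp2).pow).mul ((hq.odd_of_ne_two hq2).pow)
  have hg0pos : 0 < g₀ := Nat.pos_of_ne_zero (by rintro h; rw [h] at hodd; exact absurd hodd (by decide))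
  have hg1 : 1 < g₀ := by
    have h1 : p ≤ p ^ a := Nat.le_self_pow (by omega) p
    have h2 : 1 ≤ q ^ b := Nat.one_le_pow _ _ hq.pos
    have h3 := hp.two_le
    rw [hg0]; nlinarith
  have hnc : ¬ ∃ N : Subgroup G, N.Normal ∧ Nat.card N = g₀ := by
    rintro ⟨N, hN, hcN⟩
    rcases hN.eq_bot_or_eq_top with h | h
    · rw [h, Subgroup.card_bot] at hcN; omega
    · rw [h, Subgroup.card_top] at hcN; omega
  obtain ⟨P⟩ : Nonempty (Sylow 2 G) := inferInstance
  obtain ⟨M, hM⟩ := CfsgLib.DZ19.exists_modular 2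
  have hH := CfsgLib.KleinOrd.fusion hodd hG' hnc P
  obtain ⟨J, hJP, hJ⟩ := hH.exists_z
  obtain ⟨ζ, δ, hinj, hne, hδ, hB, hval, hrel⟩ := hH.main hM
  have hne' : ∀ i, (ζ i : G → ℂ) ≠ fun _ => 1 := fun i h => hne i (Subtype.ext h)
  have hmod : ∀ i, (4 : ℤ) ∣ (charDegree (ζ i : G → ℂ) : ℤ) - δ i := fun i => hH.mod_four (hval i)
  have hpos : ∀ i, 0 < charDegree (ζ i : G → ℂ) := fun i => irr_charDegree_pos (ζ i).2
  have hdeg : ∀ i, (ζ i : G → ℂ) 1 = ((charDegree (ζ i : G → ℂ) : ℕ) : ℂ) := fun i => irr_one_eq_charDegree (ζ i).2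
  have hoddx : ∀ i, charDegree (ζ i : G → ℂ) % 2 = 1 := by
    intro i
    have := hmod i
    rcases hδ i with h | h <;> rw [h] at this <;> omega
  have h3x : ∀ i, 3 ≤ charDegree (ζ i : G → ℂ) := fun i => deg_ge_three hna (ζ i) (hne' i) (hoddx i)
  have hJe : 2 ∣ orderOf J := by rw [hJ]
  -- primes dividing subgroup orders
  have hprG : ∀ r : ℕ, r.Prime → r ∣ Nat.card G → r = 2 ∨ r = p ∨ r = q := by
    intro r hr h
    rw [hG', hg0, show (4 : ℕ) = 2 ^ 2 by norm_num] at h
    rcases (hr.dvd_mul).1 h with h | h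
    · left; exact (Nat.prime_dvd_prime_iff_eq hr Nat.prime_two).1 (hr.dvd_of_dvd_pow h)
    · rcases (hr.dvd_mul).1 h with h | h
      · right; left; exact (Nat.prime_dvd_prime_iff_eq hr hp).1 (hr.dvd_of_dvd_pow h)
      · right; right; exact (Nat.prime_dvd_prime_iff_eq hr hq).1 (hr.dvd_of_dvd_pow h)
  have hprx : ∀ i, ∀ r : ℕ, r.Prime → r ∣ charDegree (ζ i : G → ℂ) → r = p ∨ r = q := by
    intro i r hr h
    rcases hprG r hr (h.trans (CfsgLib.CharInt2.charDegree_dvd_card (ζ i).2)) with h1 | h1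
    · exfalso; rw [h1] at h; have := hoddx i; omega
    · exact h1
  set cJ := Nat.card (Subgroup.centralizer ({J} : Set G)) with hcJ
  set cP := Nat.card (Subgroup.centralizer ((P : Subgroup G) : Set G)) with hcP
  have hcJd : cJ ∣ Nat.card G := Subgroup.card_subgroup_dvd_card _
  have hcPd : cP ∣ Nat.card G := Subgroup.card_subgroup_dvd_card _
  have hcPpos : 0 < cP := Nat.card_pos
  have hcJpos : 0 < cJ := Nat.card_pos
  -- the general setting for a triple
  have hset : ∀ i j k : Fin 3, i ≠ j → i ≠ k → j ≠ k → (∀ l, l = i ∨ l = j ∨ l = k) →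
      principalBlock M G = {χ : IrrCharacter G | (χ : G → ℂ) = (fun _ => 1) ∨ χ = ζ i ∨ χ = ζ j ∨ χ = ζ k} := by
    intro i j k hij hik hjk hall
    ext χ
    rw [Set.mem_setOf_eq, hB]
    constructor
    · rintro (h | ⟨l, h⟩)
      · left; rw [h]; rfl
      · right
        rcases hall l with h1 | h1 | h1 <;> rw [h, h1] <;> simp
    · rintro (h | h | h | h)
      · left; exact Subtype.ext h
      · right; exact ⟨i, h⟩
      · right; exact ⟨j, h⟩
      · right; exact ⟨k, h⟩
  have h1 : (1 : ℤ) + ∑ i, δ i * (charDegree (ζ i : G → ℂ) : ℤ) = 0 := by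
    have := hrel 1 (by rw [orderOf_one]; norm_num)
    simp only [hdeg] at this
    exact_mod_cast this
  have hsum : ∀ i j k : Fin 3, i ≠ j → i ≠ k → j ≠ k → (∀ l, l = i ∨ l = j ∨ l = k) →
      (1 : ℤ) + δ i * (charDegree (ζ i : G → ℂ) : ℤ) + δ j * (charDegree (ζ j : G → ℂ) : ℤ) + δ k * (charDegree (ζ k : G → ℂ) : ℤ) = 0 := by
    intro i j k hij hik hjk hall
    have h2 : (Finset.univ : Finset (Fin 3)) = {i, j, k} := by
      ext l; simp only [Finset.mem_univ, Finset.mem_insert, Finset.mem_singleton, true_iff]; exact hall l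
    rw [h2, Finset.sum_insert (by simp [hij, hik]), Finset.sum_insert (by simp [hjk]), Finset.sum_singleton] at h1
    linarith
  -- case analysis on a permutation
  have caseA : ∀ i j k : Fin 3, i ≠ j → i ≠ k → j ≠ k → (∀ l, l = i ∨ l = j ∨ l = k) → δ i = 1 → δ j = 1 → δ k = -1 → False := by
    intro i j k hij hik hjk hall hi hj hk
    have hs := hsum i j k hij hik hjk hall
    rw [hi, hj, hk] at hs
    have m3 := hmod k
    rw [hk] at m3
    have a1 := h3x i
    have a2 := h3x j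
    obtain ⟨m, hm1, hm2⟩ := Cfsg.Agent.S4480.result M hM g₀ hodd hG' hnc P J hJP hJ (ζ i) (ζ j) (ζ k) 1 1 (-1)
      (hset i j k hij hik hjk hall)
      ⟨hne' i, hne' j, hne' k, fun h => hij (hinj h), fun h => hik (hinj h), fun h => hjk (hinj h)⟩
      ⟨Or.inl rfl, Or.inl rfl, Or.inr rfl⟩
      ⟨by rw [hval i J hJe, hi], by rw [hval j J hJe, hj], by rw [hval k J hJe, hk]⟩ (by norm_num) rfl
    rw [← hcP] at hm2
    have hpx := hprx k
    revert hm2 hs m3 hpx
    generalize charDegree (ζ k : G → ℂ) = y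
    intro hs m3 hm2 hpx
    have hy3 : 3 < y := by omega
    have hyd : (y ^ 3 - y) = y * ((y - 1) * (y + 1)) := by
      obtain ⟨t, rfl⟩ : ∃ t, y = t + 1 := ⟨y - 1, by omega⟩
      rw [Nat.add_sub_cancel]
      rw [Nat.sub_eq_iff_eq_add (Nat.le_self_pow (by norm_num) _)]
      ring
    rw [hyd] at hm2
    have hdv1 : (y - 1) ∣ 8 * Nat.card G := ⟨m ^ 3 * cP * (y * (y + 1)), by rw [hm2]; ring⟩
    have hdv2 : (y + 1) ∣ 8 * Nat.card G := ⟨m ^ 3 * cP * (y * (y - 1)), by rw [hm2]; ring⟩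
    have hpr8 : ∀ r : ℕ, r.Prime → r ∣ 8 * Nat.card G → r = 2 ∨ r = p ∨ r = q := by
      intro r hr h
      rcases (hr.dvd_mul).1 h with h | h
      · left
        rw [show (8 : ℕ) = 2 ^ 3 by norm_num] at h
        exact (Nat.prime_dvd_prime_iff_eq hr Nat.prime_two).1 (hr.dvd_of_dvd_pow h)
      · exact hprG r hr h
    have hy4 : y % 4 = 3 := by omega
    apply nt1 hp hq hp2 hq2 hy3 hpx (fun r hr h => hpr8 r hr (h.trans hdv1)) (fun r hr h => hpr8 r hr (h.trans hdv2)) hy4
    -- the 2-part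
    have h4cP : 4 ∣ cP := by
      rw [← hH.card]
      apply Subgroup.card_dvd_of_le
      intro x hx
      rw [Subgroup.mem_centralizer_iff]
      intro z hz
      exact hH.comm hz hx
    obtain ⟨c, hc⟩ := h4cP
    obtain ⟨s, hs'⟩ : ∃ s, y - 1 = 2 * s := ⟨(y - 1) / 2, by omega⟩
    obtain ⟨t, ht⟩ : ∃ t, y + 1 = 4 * t := ⟨(y + 1) / 4, by omega⟩
    have h5 : 32 * g₀ = 32 * (m ^ 3 * c * (y * (s * t))) := by
      calc 32 * g₀ = 8 * Nat.card G := by rw [hG']; ring
        _ = 32 * (m ^ 3 * c * (y * (s * t))) := by rw [hm2, hc, hs', ht]; ring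
    have h6 : g₀ = m ^ 3 * c * (y * (s * t)) := by omega
    have h7 : ¬ 2 ∣ t := by
      intro h8
      have h9 : 2 ∣ g₀ := by
        rw [h6]; exact ((h8.mul_left s).mul_left y).mul_left _
      have h10 := Nat.odd_iff.1 hodd
      omega
    omega
  -- the order formula
  have caseB : ∀ i j k : Fin 3, i ≠ j → i ≠ k → j ≠ k → (∀ l, l = i ∨ l = j ∨ l = k) → δ i = 1 → δ j = -1 → δ k = -1 →
      Nonempty (G ≃* alternatingGroup (Fin 5)) := by
    intro i j k hij hik hjk hall hi hj hk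
    have hs := hsum i j k hij hik hjk hall
    rw [hi, hj, hk] at hs
    have m1 := hmod i
    have m2 := hmod j
    have m3 := hmod k
    rw [hi] at m1
    rw [hj] at m2
    rw [hk] at m3
    have a1 := h3x i
    have a2 := h3x j
    have a3 := h3x k
    have hof := Cfsg.Agent.S4479.result M hM g₀ hodd hG' hnc P J hJP hJ (ζ i) (ζ j) (ζ k) 1 (-1) (-1)
      (hset i j k hij hik hjk hall)
      ⟨hne' i, hne' j, hne' k, fun h => hij (hinj h), fun h => hik (hinj h), fun h => hjk (hinj h)⟩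
      ⟨Or.inl rfl, Or.inr rfl, Or.inr rfl⟩
      ⟨by rw [hval i J hJe, hi], by rw [hval j J hJe, hj], by rw [hval k J hJe, hk]⟩
    rw [← hcP, ← hcJ] at hof
    have key : Nat.card G * ((charDegree (ζ i : G → ℂ) + 1) * (charDegree (ζ j : G → ℂ) - 1) * (charDegree (ζ k : G → ℂ) - 1)) * cP ^ 2 =
        8 * (charDegree (ζ i : G → ℂ) * charDegree (ζ j : G → ℂ) * charDegree (ζ k : G → ℂ)) * cJ ^ 3 := by
      have hc0 : (cP : ℚ) ≠ 0 := by exact_mod_cast hcPpos.ne'
      have e1 : ((charDegree (ζ i : G → ℂ) : ℚ) + ((1 : ℤ) : ℚ)) ≠ 0 := by push_cast; positivity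
      have e2 : ((charDegree (ζ j : G → ℂ) : ℚ) + ((-1 : ℤ) : ℚ)) ≠ 0 := by
        have : (3 : ℚ) ≤ (charDegree (ζ j : G → ℂ) : ℚ) := by exact_mod_cast a2
        push_cast; linarith
      have e3 : ((charDegree (ζ k : G → ℂ) : ℚ) + ((-1 : ℤ) : ℚ)) ≠ 0 := by
        have : (3 : ℚ) ≤ (charDegree (ζ k : G → ℂ) : ℚ) := by exact_mod_cast a3
        push_cast; linarith
      have e4 : (((charDegree (ζ j : G → ℂ) - 1 : ℕ)) : ℚ) = (charDegree (ζ j : G → ℂ) : ℚ) + ((-1 : ℤ) : ℚ) := by
        rw [Nat.cast_sub (by omega)]; push_cast; ring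
      have e5 : (((charDegree (ζ k : G → ℂ) - 1 : ℕ)) : ℚ) = (charDegree (ζ k : G → ℂ) : ℚ) + ((-1 : ℤ) : ℚ) := by
        rw [Nat.cast_sub (by omega)]; push_cast; ring
      have e6 : (((charDegree (ζ i : G → ℂ) + 1 : ℕ)) : ℚ) = (charDegree (ζ i : G → ℂ) : ℚ) + ((1 : ℤ) : ℚ) := by
        push_cast; ring
      have : (((Nat.card G * ((charDegree (ζ i : G → ℂ) + 1) * (charDegree (ζ j : G → ℂ) - 1) * (charDegree (ζ k : G → ℂ) - 1)) * cP ^ 2 : ℕ)) : ℚ) =
        ((8 * (charDegree (ζ i : G → ℂ) * charDegree (ζ j : G → ℂ) * charDegree (ζ k : G → ℂ)) * cJ ^ 3 : ℕ) : ℚ) := by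
        rw [Nat.cast_mul, Nat.cast_mul, Nat.cast_mul, Nat.cast_mul, e4, e5, e6, hof]
        push_cast at e1 e2 e3 ⊢
        field_simp
      exact_mod_cast this
    have hprE : ∀ r : ℕ, r.Prime → r ∣ 8 * (charDegree (ζ i : G → ℂ) * charDegree (ζ j : G → ℂ) * charDegree (ζ k : G → ℂ)) * cJ ^ 3 →
        r = 2 ∨ r = p ∨ r = q := by
      intro r hr h
      rcases (hr.dvd_mul).1 h with h | h
      · rcases (hr.dvd_mul).1 h with h | h
        · left
          rw [show (8 : ℕ) = 2 ^ 3 by norm_num] at h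
          exact (Nat.prime_dvd_prime_iff_eq hr Nat.prime_two).1 (hr.dvd_of_dvd_pow h)
        · right
          rcases (hr.dvd_mul).1 h with h | h
          · rcases (hr.dvd_mul).1 h with h | h
            · exact hprx i r hr h
            · exact hprx j r hr h
          · exact hprx k r hr h
      · exact hprG r hr ((hr.dvd_of_dvd_pow h).trans hcJd)
    have hp_i := hprx i
    have hp_j := hprx j
    have hp_k := hprx k
    obtain ⟨r1, r2, r3⟩ := nt2 (u := charDegree (ζ i : G → ℂ)) (v := charDegree (ζ j : G → ℂ)) (w := charDegree (ζ k : G → ℂ))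
      hp hq hp2 hq2 a1 a2 a3 (by omega) (by omega) (by omega) (by omega) hp_i hp_j hp_k
      (fun r hr h => hprE r hr (by rw [← key]; exact ((((h.mul_right _).mul_right _).mul_left _).mul_right _)))
      (fun r hr h => hprE r hr (by rw [← key]; exact ((((h.mul_left _).mul_right _).mul_left _).mul_right _)))
      (fun r hr h => hprE r hr (by rw [← key]; exact (((h.mul_left _).mul_left _).mul_right _)))
    rw [r1, r2, r3] at key
    have h31 : (ζ j : G → ℂ) 1 = 3 := by rw [hdeg, r1]; norm_num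
    have hsq : ∀ g : G, 2 ∣ orderOf g → g ^ 2 = 1 := by
      intro g hg
      apply sq_of_neg_one hna (ζ j).2 h31
      rw [hval j g hg, hj]; norm_num
    have hPJ : (P : Subgroup G) ≤ Subgroup.centralizer ({J} : Set G) := by
      intro x hx
      rw [Subgroup.mem_centralizer_singleton_iff]
      exact hH.comm hx hJP
    have hcJ4 : cJ = 4 := cent_card hodd hG' hsq hJ P hH.card hPJ
    have hcP4 : cP = 4 := by
      apply le_antisymm
      · rw [← hcJ4]
        apply Subgroup.card_le_of_le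
        exact Subgroup.centralizer_le (Set.singleton_subset_iff.2 hJP)
      · rw [← hH.card]
        apply Subgroup.card_le_of_le
        intro x hx
        rw [Subgroup.mem_centralizer_iff]
        intro z hz
        exact hH.comm hz hx
    rw [hcJ4, hcP4] at key
    have h60 : Nat.card G = 60 := by omega
    exact CfsgLib.Dk29.simple60 h60
  -- combinatorics of the signs
  have hs012 := hsum 0 1 2 (by decide) (by decide) (by decide) (by decide)
  have x0 := h3x 0
  have x1 := h3x 1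
  have x2 := h3x 2
  rcases hδ 0 with h0 | h0 <;> rcases hδ 1 with h1' | h1' <;> rcases hδ 2 with h2 | h2
  · rw [h0, h1', h2] at hs012; omega
  · exact (caseA 0 1 2 (by decide) (by decide) (by decide) (by decide) h0 h1' h2).elim
  · exact (caseA 0 2 1 (by decide) (by decide) (by decide) (by decide) h0 h2 h1').elim
  · exact caseB 0 1 2 (by decide) (by decide) (by decide) (by decide) h0 h1' h2
  · exact (caseA 1 2 0 (by decide) (by decide) (by decide) (by decide) h1' h2 h0).elim
  · exact caseB 1 0 2 (by decide) (by decide) (by decide) (by decide) h1' h0 h2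
  · exact caseB 2 0 1 (by decide) (by decide) (by decide) (by decide) h2 h0 h1'
  · rw [h0, h1', h2] at hs012; omega

end CfsgLib.H6Br
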