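import Mathlib
import Cfsg.Agent.LibStrongH12c
import Cfsg.Agent.LibStrongH12d

/-! Groups in which centralizers of involutions are abelian, basics. -/

set_option autoImplicit false
set_option linter.all false

namespace CfsgLib.H6Ca

open Cfsg Subgroup CfsgLib.Invol CfsgLib.FusionH12 CfsgLib.StrongH12
open scoped Pointwise

/-- the standing hypotheses -/
structure Ctx (G : Type*) [Group G] : Prop where
  hC : ∀ t : G, orderOf t = 2 → ∀ a b : G, Commute a t → Commute b t → Commute a b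
  hnc : ∀ P : Sylow 2 G, ¬ IsCyclic (P : Subgroup G)
  hnn : ∀ P : Sylow 2 G, ¬ (P : Subgroup G).Normal

section Basic

variable {G : Type*} [Group G] [Finite G]

/-- the stabilizer of the point `P` -/
abbrev NN (P : Sylow 2 G) : Subgroup G := normalizer ((P : Subgroup G) : Set G)
/-- its abelian kernel -/
abbrev AA (P : Sylow 2 G) : Subgroup G := centralizer ((P : Subgroup G) : Set G)

omit [Finite G] in
theorem mem_AA {P : Sylow 2 G} {g : G} : g ∈ AA P ↔ ∀ p ∈ P, Commute g p := by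
  rw [mem_centralizer_iff]
  exact ⟨fun h p hp => (h p hp).symm, fun h p hp => (h p hp).symm⟩

omit [Finite G] in
theorem AA_le (P : Sylow 2 G) : AA P ≤ NN P := by
  intro g hg
  rw [mem_AA] at hg
  rw [mem_normalizer_iff]
  intro h
  constructor
  · intro hh
    rw [(hg h hh).eq, mul_inv_cancel_right]; exact hh
  · intro hh
    have h1 := hg _ hh
    have h2 : g * (g * h * g⁻¹) * g⁻¹ = g * h * g⁻¹ := by rw [h1.eq, mul_inv_cancel_right]
    have h3 : g * h * g⁻¹ = h := by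
      have := mul_right_cancel (mul_left_cancel (a := g) (by simpa only [mul_assoc] using h2) : (g * h * g⁻¹) * g⁻¹ = h * g⁻¹)
      exact this
    rw [h3] at hh; exact hh

theorem eq_of_le {P Q : Sylow 2 G} (h : (Q : Subgroup G) ≤ NN P) : Q = P := by
  haveI : Fact (Nat.Prime 2) := ⟨Nat.prime_two⟩
  have h1 := Q.2.to_sup_of_normal_right' P.2 h
  have h2 := P.3 h1 le_sup_right
  have h3 := Q.3 h1 le_sup_left
  exact Sylow.ext (h3.symm.trans h2)

theorem inv_mem_of_mem {P : Sylow 2 G} {t : G} (ht : t ∈ NN P) (ht2 : orderOf t = 2) : t ∈ P :=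
  mem_T_of_mem_normalizer ht ht2

theorem exists_inv (X : Ctx G) (P : Sylow 2 G) : ∃ z ∈ P, orderOf z = 2 ∧ ∀ s ∈ P, Commute s z :=
  exists_central_involution P.2 (T_ne_bot (X.hnc P))

theorem P_comm (X : Ctx G) {P : Sylow 2 G} {a b : G} (ha : a ∈ P) (hb : b ∈ P) : Commute a b := by
  obtain ⟨z, hz, hz2, hzc⟩ := exists_inv X P
  exact X.hC z hz2 a b (hzc a ha) (hzc b hb)

theorem P_le_AA (X : Ctx G) (P : Sylow 2 G) : (P : Subgroup G) ≤ AA P := fun p hp =>
  mem_AA.2 fun q hq => P_comm X hp hq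

theorem mem_AA_of (X : Ctx G) {P : Sylow 2 G} {t g : G} (ht : t ∈ P) (ht2 : orderOf t = 2)
    (h : Commute g t) : g ∈ AA P :=
  mem_AA.2 fun p hp => X.hC t ht2 g p h (P_comm X hp ht)

theorem AA_comm (X : Ctx G) {P : Sylow 2 G} {a b : G} (ha : a ∈ AA P) (hb : b ∈ AA P) : Commute a b := by
  obtain ⟨z, hz, hz2, hzc⟩ := exists_inv X P
  exact X.hC z hz2 a b (mem_AA.1 ha z hz) (mem_AA.1 hb z hz)

theorem eq_of_mem (X : Ctx G) {P Q : Sylow 2 G} {t : G} (ht2 : orderOf t = 2) (hP : t ∈ P) (hQ : t ∈ Q) :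
    Q = P :=
  eq_of_le fun q hq => AA_le P (mem_AA_of X hP ht2 (P_comm X hq hQ))

omit [Finite G] in
theorem mem_smul {P : Sylow 2 G} {g t : G} : t ∈ g • P ↔ g⁻¹ * t * g ∈ P := by
  haveI : Fact (Nat.Prime 2) := ⟨Nat.prime_two⟩
  exact mem_smul_sylow

omit [Finite G] in
theorem smul_eq {P : Sylow 2 G} {g : G} : g • P = P ↔ g ∈ NN P := Sylow.smul_eq_iff_mem_normalizer

omit [Finite G] in
theorem mem_NN_smul {P : Sylow 2 G} {g n : G} : n ∈ NN (g • P) ↔ g⁻¹ * n * g ∈ NN P := by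
  rw [← smul_eq, ← smul_eq, mul_smul, mul_smul, inv_smul_eq_iff]

omit [Finite G] in
theorem mem_AA_smul {P : Sylow 2 G} {g n : G} : n ∈ AA (g • P) ↔ g⁻¹ * n * g ∈ AA P := by
  rw [mem_AA, mem_AA]
  constructor
  · intro h p hp
    have h1 : g * p * g⁻¹ ∈ g • P := by rw [mem_smul]; simpa [mul_assoc] using hp
    have h2 := h _ h1
    change g⁻¹ * n * g * p = p * (g⁻¹ * n * g)
    calc g⁻¹ * n * g * p = g⁻¹ * (n * (g * p * g⁻¹)) * g := by group
      _ = p * (g⁻¹ * n * g) := by rw [h2.eq]; group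
  · intro h p hp
    rw [mem_smul] at hp
    have h2 := h _ hp
    change n * p = p * n
    calc n * p = g * (g⁻¹ * n * g * (g⁻¹ * p * g)) * g⁻¹ := by group
      _ = p * n := by rw [h2.eq]; group

theorem strong (X : Ctx G) (P : Sylow 2 G) : IsStronglyEmbedded (NN P) := by
  haveI : Fact (Nat.Prime 2) := ⟨Nat.prime_two⟩
  refine ⟨?_, ?_, ?_⟩
  · intro h
    exact X.hnn P (normalizer_eq_top_iff.1 h)
  · obtain ⟨z, hz, hz2, -⟩ := exists_inv X P
    rw [even_iff_two_dvd]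
    exact two_dvd_card_of_mem (le_normalizer hz) hz2
  · intro g hg
    apply odd_card_of_forall
    intro t ht ht2
    obtain ⟨h1, h2⟩ := mem_inf.1 ht
    change t ∈ cj g _ at h2
    rw [mem_cj] at h2
    apply hg
    rw [← smul_eq]
    have h3 := inv_mem_of_mem h1 ht2
    have h4 : g⁻¹ * t * g ∈ P := inv_mem_of_mem h2 (by rw [orderOf_conj', ht2])
    exact eq_of_mem X ht2 h3 (mem_smul.2 h4)

/-- two different points are swapped by an involution -/
theorem exists_swp (X : Ctx G) {P Q : Sylow 2 G} (h : P ≠ Q) :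
    ∃ u : G, orderOf u = 2 ∧ u • P = Q ∧ u • Q = P := by
  haveI : Fact (Nat.Prime 2) := ⟨Nat.prime_two⟩
  obtain ⟨g, hg⟩ := MulAction.exists_smul_eq G P Q
  have hgN : g ∉ NN P := fun h' => h ((smul_eq.2 h').symm.trans hg)
  have hne : (QuotientGroup.mk 1 : G ⧸ NN P) ≠ QuotientGroup.mk g := by
    intro h'
    rw [QuotientGroup.eq] at h'
    simp at h'; exact hgN (by rw [mem_normalizer_iff]; exact h')
  obtain ⟨i, hi, hix⟩ := exists_swap (strong X P) hne
  rw [smul_mk_mem] at hix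
  have h1 : i • P = Q := by
    rw [← smul_eq, mul_smul, inv_smul_eq_iff] at hix
    rw [← hix, hg]
  exact ⟨i, hi, h1, by rw [← h1]; exact swap_back hi rfl⟩

theorem exists_pt (X : Ctx G) {t : G} (ht : orderOf t = 2) : ∃ R : Sylow 2 G, t ∈ R := by
  haveI : Fact (Nat.Prime 2) := ⟨Nat.prime_two⟩
  have htp : IsPGroup 2 (zpowers t) := by
    apply IsPGroup.of_card (n := 1)
    rw [Nat.card_zpowers, ht, pow_one]
  obtain ⟨S, hS⟩ := htp.exists_le_sylow
  exact ⟨S, hS (mem_zpowers t)⟩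

theorem inf_odd (X : Ctx G) {P Q : Sylow 2 G} (h : P ≠ Q) : Odd (Nat.card ↥(NN P ⊓ NN Q)) := by
  apply odd_card_of_forall
  intro t ht ht2
  obtain ⟨h1, h2⟩ := mem_inf.1 ht
  exact h (eq_of_mem X ht2 (inv_mem_of_mem h2 ht2) (inv_mem_of_mem h1 ht2))

/-- the two-point stabilizer is transitive on the involutions of `P` -/
theorem inf_trans (X : Ctx G) {P Q : Sylow 2 G} (h : P ≠ Q) {s t : G} (hs : orderOf s = 2) (hsP : s ∈ P)
    (ht : orderOf t = 2) (htP : t ∈ P) : ∃ d ∈ NN P ⊓ NN Q, d * s * d⁻¹ = t := by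
  obtain ⟨u, hu, huP, huQ⟩ := exists_swp X h
  have huN : u ∉ NN P := fun h' => h ((smul_eq.2 h').symm.trans huP)
  obtain ⟨d, hd, hdt⟩ := conj_transitive (strong X P) hu huN hs (le_normalizer hsP) ht (le_normalizer htP)
  refine ⟨d, ?_, hdt⟩
  obtain ⟨h1, h2⟩ := mem_inf.1 hd
  refine mem_inf.2 ⟨h1, ?_⟩
  change d ∈ cj u _ at h2
  rw [mem_cj] at h2
  rw [← huP, mem_NN_smul]; exact h2

/-- number of involutions swapping two points -/
theorem count_swp (X : Ctx G) {P Q : Sylow 2 G} (h : P ≠ Q) :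
    Nat.card {i : G // orderOf i = 2 ∧ i • P = Q} = Nat.card {t : G // orderOf t = 2 ∧ t ∈ NN P} := by
  obtain ⟨u, hu, huP, huQ⟩ := exists_swp X h
  have huN : u ∉ NN P := fun h' => h ((smul_eq.2 h').symm.trans huP)
  have hne : (QuotientGroup.mk 1 : G ⧸ NN P) ≠ QuotientGroup.mk u := by
    intro h'
    rw [QuotientGroup.eq] at h'
    simp at h'; exact huN (by rw [mem_normalizer_iff]; exact h')
  rw [← count_eq (strong X P) hne]
  refine Nat.card_congr (Equiv.subtypeEquivRight fun i => ?_)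
  rw [smul_mk_mem, ← smul_eq, mul_smul, inv_smul_eq_iff, huP, eq_comm (a := Q)]

/-- elements of odd order inverted by an involution of `R` do not fix `R` -/
theorem no_inv {R : Sylow 2 G} {u v : G} (hu : orderOf u = 2) (huR : u ∈ R) (hv : v ∈ NN R)
    (hodd : Odd (orderOf v)) (h : u * v * u⁻¹ = v⁻¹) : v = 1 := by
  haveI : Fact (Nat.Prime 2) := ⟨Nat.prime_two⟩
  have h1 : v * u * v⁻¹ ∈ (R : Subgroup G) := (mem_normalizer_iff.1 hv u).1 huR
  have h2 : v * v = (v * u * v⁻¹) * u⁻¹ := by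
    have h3 : u * v⁻¹ * u⁻¹ = v := by
      have := congrArg Inv.inv h
      rw [inv_inv] at this
      exact (by group : u * v⁻¹ * u⁻¹ = (u * v * u⁻¹)⁻¹).trans this
    calc v * v = v * (u * v⁻¹ * u⁻¹) := by rw [h3]
      _ = _ := by group
  have h3 : v * v ∈ (R : Subgroup G) := by rw [h2]; exact mul_mem h1 (inv_mem huR)
  have h4 : IsPGroup 2 (R : Subgroup G) := R.2
  obtain ⟨k, hk⟩ := h4 ⟨v * v, h3⟩
  have hk' : (v * v) ^ 2 ^ k = 1 := congrArg Subtype.val hk
  have h5 : v ^ 2 ^ (k + 1) = 1 := by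
    rw [pow_succ', pow_mul, pow_two, hk']
  have h6 := orderOf_dvd_of_pow_eq_one h5
  have h7 : Nat.Coprime (orderOf v) (2 ^ (k + 1)) := Nat.Coprime.pow_right _ (Nat.coprime_two_right.2 hodd)
  rw [← orderOf_eq_one_iff]
  exact Nat.eq_one_of_dvd_coprimes h7 dvd_rfl h6

end Basic

end CfsgLib.H6Ca
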