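import Mathlib
import Cfsg.Agent.LibH6CaA
import Cfsg.Agent.LibSolvCoprime3

/-! Groups in which centralizers of involutions are abelian: the Zassenhaus structure. -/

set_option autoImplicit false
set_option linter.all false

namespace CfsgLib.H6Ca

open Cfsg Subgroup CfsgLib.Invol CfsgLib.FusionH12 CfsgLib.StrongH12
open scoped Pointwise

/-- centralizers of elements of the kernels fix the point -/
def QQ (G : Type*) [Group G] : Prop :=
  ∀ P : Sylow 2 G, ∀ x ∈ AA P, x ≠ 1 → ∀ g : G, Commute g x → g ∈ NN P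

section Two

variable {G : Type*} [Group G] [Finite G]

theorem AA_inf (X : Ctx G) (hQ : QQ G) {P Q : Sylow 2 G} (h : P ≠ Q) {x : G} (hP : x ∈ AA P)
    (hx : x ∈ AA Q) : x = 1 := by
  by_contra h1
  exact h (eq_of_le (fun q hq => hQ P x hP h1 q (mem_AA.1 hx q hq).symm)).symm

/-- the two-point stabilizer meets the kernel trivially -/
theorem AA_NN (X : Ctx G) (hQ : QQ G) {P Q : Sylow 2 G} (h : P ≠ Q) {x : G} (hP : x ∈ AA P)
    (hx : x ∈ NN Q) : x = 1 := by
  obtain ⟨u, hu, huP, huQ⟩ := exists_swp X h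
  have huu : u⁻¹ = u := inv_eq hu
  set y : G := u * x * u⁻¹ with hy
  have hyQ : y ∈ AA Q := by
    rw [← huP, mem_AA_smul, hy]; simpa [mul_assoc] using hP
  have hyP : y ∈ NN P := by
    rw [← huQ, mem_NN_smul, hy]; simpa [mul_assoc] using hx
  have hconj : ∀ {R : Sylow 2 G} {n a : G}, n ∈ NN R → a ∈ AA R → n * a * n⁻¹ ∈ AA R := by
    intro R n a hn ha
    have h1 : n • R = R := smul_eq.2 hn
    rw [← h1, mem_AA_smul]; simpa [mul_assoc] using ha
  have hxy : Commute x y := by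
    have h1 : x * y * x⁻¹ * y⁻¹ ∈ AA Q := mul_mem (hconj hx hyQ) (inv_mem hyQ)
    have h2 : x * y * x⁻¹ * y⁻¹ ∈ AA P := by
      have := mul_mem hP (hconj hyP (inv_mem hP))
      simpa [mul_assoc] using this
    have h3 := AA_inf X hQ h h2 h1
    change x * y = y * x
    calc x * y = (x * y * x⁻¹ * y⁻¹) * (y * x) := by group
      _ = y * x := by rw [h3, one_mul]
  have huy : u * y * u⁻¹ = x := by
    rw [hy]
    calc u * (u * x * u⁻¹) * u⁻¹ = (u * u) * x * (u * u)⁻¹ := by group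
      _ = x := by rw [mul_self hu]; simp
  have hc : Commute (x * y) u := by
    have h1 : u * (x * y) * u⁻¹ = x * y := by
      calc u * (x * y) * u⁻¹ = (u * x * u⁻¹) * (u * y * u⁻¹) := by group
        _ = y * x := by rw [huy, ← hy]
        _ = x * y := hxy.eq.symm
    exact (mul_inv_eq_iff_eq_mul.1 h1).symm
  obtain ⟨R, huR⟩ := exists_pt X hu
  have hcR : x * y ∈ AA R := mem_AA_of X huR hu hc
  by_cases h1 : x * y = 1
  · have h2 : y = x⁻¹ := eq_inv_of_mul_eq_one_right h1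
    have h3 : x⁻¹ ∈ AA Q := by rw [← h2]; exact hyQ
    exact AA_inf X hQ h hP (inv_mem_iff.1 h3)
  · have hxR : x ∈ NN R := hQ R _ hcR h1 x ((Commute.refl x).mul_right hxy)
    have hyR : y ∈ NN R := hQ R _ hcR h1 y (hxy.symm.mul_right (Commute.refl y))
    have hv : x⁻¹ * y ∈ NN R := mul_mem (inv_mem hxR) hyR
    have hodd : Odd (orderOf (x⁻¹ * y)) :=
      odd_order (inf_odd X h) (mul_mem (inv_mem (mem_inf.2 ⟨AA_le P hP, hx⟩)) (mem_inf.2 ⟨hyP, AA_le Q hyQ⟩))
    have hinv : u * (x⁻¹ * y) * u⁻¹ = (x⁻¹ * y)⁻¹ := by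
      calc u * (x⁻¹ * y) * u⁻¹ = (u * x * u⁻¹)⁻¹ * (u * y * u⁻¹) := by group
        _ = y⁻¹ * x := by rw [huy, ← hy]
        _ = _ := by group
    have h2 := no_inv hu huR hv hodd hinv
    have h3 : y = x := by rw [← inv_mul_eq_one.1 h2]
    exact AA_inf X hQ h hP (by rw [h3] at hyQ; exact hyQ)

/-- order of the two-point stabilizers -/
theorem card_inf (X : Ctx G) (hQ : QQ G) {P Q : Sylow 2 G} (h : P ≠ Q) :
    Nat.card ↥(NN P ⊓ NN Q) = Nat.card {t : G // orderOf t = 2 ∧ t ∈ NN P} := by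
  obtain ⟨s, hs, hs2, -⟩ := exists_inv X P
  refine Nat.card_eq_of_bijective (fun d : ↥(NN P ⊓ NN Q) => (⟨d.1 * s * d.1⁻¹, ?_, ?_⟩ :
    {t : G // orderOf t = 2 ∧ t ∈ NN P})) ⟨?_, ?_⟩
  · rw [orderOf_conj, hs2]
  · exact mul_mem (mul_mem d.2.1 (le_normalizer hs)) (inv_mem d.2.1)
  · intro d e hde
    have h := congrArg (fun z : {t : G // orderOf t = 2 ∧ t ∈ NN P} => z.1) hde
    simp only at h
    have hc : Commute (d.1⁻¹ * e.1) s := by
      change d.1⁻¹ * e.1 * s = s * (d.1⁻¹ * e.1)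
      calc d.1⁻¹ * e.1 * s = d.1⁻¹ * (e.1 * s * e.1⁻¹) * e.1 := by group
        _ = s * (d.1⁻¹ * e.1) := by rw [← h]; group
    have h2 : d.1⁻¹ * e.1 ∈ NN P ⊓ NN Q := mul_mem (inv_mem d.2) e.2
    have := AA_NN X hQ ‹P ≠ Q› (mem_AA_of X hs hs2 hc) h2.2
    exact Subtype.ext (inv_mul_eq_one.1 this)
  · rintro ⟨t, ht2, htH⟩
    obtain ⟨d, hd, hdt⟩ := inf_trans X h hs2 hs ht2 (inv_mem_of_mem htH ht2)
    exact ⟨⟨d, hd⟩, Subtype.ext hdt⟩

/-- every involution swapping two points inverts the two-point stabilizer -/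
theorem swp_inv (X : Ctx G) (hQ : QQ G) {P Q : Sylow 2 G} (h : P ≠ Q) {u d : G} (hu : orderOf u = 2)
    (huP : u • P = Q) (hd : d ∈ NN P ⊓ NN Q) : u * d * u⁻¹ = d⁻¹ := by
  have huu : u⁻¹ = u := inv_eq hu
  have huQ : u • Q = P := swap_back hu huP
  let f : {i : G // orderOf i = 2 ∧ i • P = Q} → ↥(NN P ⊓ NN Q) := fun i => ⟨i.1 * u, by
    have h1 : i.1 • Q = P := swap_back i.2.1 i.2.2
    refine mem_inf.2 ⟨smul_eq.1 ?_, smul_eq.1 ?_⟩
    · rw [mul_smul, huP, h1]
    · rw [mul_smul, huQ, i.2.2]⟩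
  have hinj : Function.Injective f := by
    intro i j hij
    exact Subtype.ext (mul_right_cancel (congrArg Subtype.val hij))
  have hbij : Function.Bijective f := (Nat.bijective_iff_injective_and_card _).2
    ⟨hinj, by rw [card_inf X hQ h, count_swp X h]⟩
  obtain ⟨i, hi⟩ := hbij.2 ⟨d, hd⟩
  have hi' : i.1 * u = d := congrArg Subtype.val hi
  rw [← hi', mul_inv_rev, huu, inv_eq i.2.1]
  rw [mul_assoc, mul_assoc, mul_self hu, mul_one]

/-- nontrivial elements of a two-point stabilizer have centralizers of odd order -/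
theorem no_inv_cent (X : Ctx G) (hQ : QQ G) {P Q : Sylow 2 G} (h : P ≠ Q) {y s : G}
    (hy : y ∈ NN P ⊓ NN Q) (hy1 : y ≠ 1) (hs : orderOf s = 2) : ¬ Commute y s := by
  intro hc
  obtain ⟨R, hR⟩ := exists_pt X hs
  have h1 := mem_AA_of X hR hs hc
  by_cases hRP : R = P
  · subst hRP
    exact hy1 (AA_NN X hQ h h1 hy.2)
  · exact hy1 (AA_NN X hQ hRP h1 hy.1)

/-- nontrivial elements fix at most two points -/
theorem fix_three (X : Ctx G) (hQ : QQ G) {P Q R : Sylow 2 G} (hPQ : P ≠ Q) (hPR : P ≠ R) (hQR : Q ≠ R)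
    {y : G} (hyP : y ∈ NN P) (hyQ : y ∈ NN Q) (hyR : y ∈ NN R) : y = 1 := by
  by_contra hy1
  obtain ⟨u, hu, huP, huQ⟩ := exists_swp X hPQ
  obtain ⟨v, hv, hvQ, hvR⟩ := exists_swp X hQR
  obtain ⟨w, hw, hwP, hwR⟩ := exists_swp X hPR
  have hodd : Odd (orderOf y) := odd_order (inf_odd X hPQ) (mem_inf.2 ⟨hyP, hyQ⟩)
  have h1 := swp_inv X hQ hPQ hu huP (mem_inf.2 ⟨hyP, hyQ⟩)
  have h2 := swp_inv X hQ hQR hv hvQ (mem_inf.2 ⟨hyQ, hyR⟩)
  have h3 := swp_inv X hQ hPR hw hwP (mem_inf.2 ⟨hyP, hyR⟩)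
  -- z = w v u fixes P and inverts y
  set z : G := w * v * u with hz
  have hzP : z • P = P := by rw [hz, mul_smul, mul_smul, huP, hvQ, hwR]
  have hzy : z * y * z⁻¹ = y⁻¹ := by
    rw [hz]
    calc w * v * u * y * (w * v * u)⁻¹ = w * (v * (u * y * u⁻¹) * v⁻¹) * w⁻¹ := by group
      _ = w * (v * y * v⁻¹)⁻¹ * w⁻¹ := by rw [h1]; group
      _ = w * y * w⁻¹ := by rw [h2, inv_inv]
      _ = y⁻¹ := h3
  -- z has even order
  have hzne : ¬ Odd (orderOf z) := by
    intro ho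
    have := odd_inverts hzy ho
    apply hy1
    apply eq_one_of_sq hodd
    rw [pow_two]; nth_rw 1 [this]; rw [inv_mul_cancel]
  rw [Nat.not_odd_iff_even] at hzne
  obtain ⟨k, hk⟩ := hzne
  have hpos := orderOf_pos z
  have hk0 : k ≠ 0 := by omega
  have hs2 : orderOf (z ^ k) = 2 := by
    rw [orderOf_pow_of_dvd hk0 (by rw [hk]; exact ⟨2, by ring⟩), hk, ← two_mul,
      Nat.mul_div_cancel _ (Nat.pos_of_ne_zero hk0)]
  have hpow : ∀ n : ℕ, (Even n → z ^ n * y * (z ^ n)⁻¹ = y) ∧ (Odd n → z ^ n * y * (z ^ n)⁻¹ = y⁻¹) := by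
    intro n
    induction n with
    | zero => exact ⟨fun _ => by simp, fun h => by simp at h⟩
    | succ n ih =>
      have h0 : z ^ (n + 1) * y * (z ^ (n + 1))⁻¹ = z * (z ^ n * y * (z ^ n)⁻¹) * z⁻¹ := by
        rw [pow_succ', mul_inv_rev]; simp only [mul_assoc]
      constructor
      · intro hn
        have hn' : Odd n := by rcases Nat.even_or_odd n with h | h; · exact absurd hn (by simpa [Nat.even_add_one] using h)
                               · exact h
        rw [h0, ih.2 hn']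
        calc z * y⁻¹ * z⁻¹ = (z * y * z⁻¹)⁻¹ := by group
          _ = y := by rw [hzy, inv_inv]
      · intro hn
        have hn' : Even n := by rcases Nat.even_or_odd n with h | h; · exact h
                                · exact absurd hn (by simpa [Nat.odd_add_one] using h)
        rw [h0, ih.1 hn', hzy]
  have hkN : z ^ k ∈ NN P := pow_mem (smul_eq.1 hzP) k
  rcases Nat.even_or_odd k with he | ho
  · have h4 := (hpow k).1 he
    have h5 : Commute y (z ^ k) := (mul_inv_eq_iff_eq_mul.1 h4).symm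
    exact no_inv_cent X hQ hPQ (mem_inf.2 ⟨hyP, hyQ⟩) hy1 hs2 h5
  · have h4 := (hpow k).2 ho
    exact hy1 (no_inv hs2 (inv_mem_of_mem hkN hs2) hyP hodd h4)

/-- number of involutions in `P` -/
theorem three_le_inv (X : Ctx G) (P : Sylow 2 G) : 3 ≤ Nat.card {t : G // orderOf t = 2 ∧ t ∈ NN P} := by
  classical
  haveI : Fact (Nat.Prime 2) := ⟨Nat.prime_two⟩
  obtain ⟨r, B, hr, hB, hBr⟩ := CfsgLib.SolvCoprime.exists_sq_of_not_isCyclic (A := (P : Subgroup G))
    (fun a b => Subtype.ext (P_comm X a.2 b.2)) (X.hnc P)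
  haveI : Fact r.Prime := ⟨hr⟩
  have hr2 : r = 2 := by
    have h1 : r ∣ Nat.card (P : Subgroup G) :=
      (dvd_pow_self r (by norm_num : (2:ℕ) ≠ 0)).trans (hB ▸ Subgroup.card_subgroup_dvd_card B)
    obtain ⟨n, hn⟩ := P.2.exists_card_eq
    have hn' : Nat.card (P : Subgroup G) = 2 ^ n := hn
    rw [hn'] at h1
    exact (Nat.prime_dvd_prime_iff_eq hr Nat.prime_two).1 (hr.dvd_of_dvd_pow h1)
  subst hr2
  have h1 : Nat.card {b : B // b ≠ 1} = 3 := by
    haveI := Fintype.ofFinite B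
    rw [Nat.card_eq_fintype_card, Fintype.card_subtype_compl, Fintype.card_subtype_eq,
      ← Nat.card_eq_fintype_card, hB]
    norm_num
  rw [← h1]
  refine Nat.card_le_card_of_injective (fun b => (⟨((b.1 : (P : Subgroup G)) : G), ?_, ?_⟩ :
    {t : G // orderOf t = 2 ∧ t ∈ NN P})) ?_
  · apply orderOf_eq_two
    · intro h
      exact b.2 (Subtype.ext (Subtype.ext h))
    · have := congrArg Subtype.val (hBr b.1.1 b.1.2)
      rw [pow_two] at this
      exact this
  · exact le_normalizer (b.1 : (P : Subgroup G)).2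
  · intro b c h
    have := congrArg (fun z : {t : G // orderOf t = 2 ∧ t ∈ NN P} => z.1) h
    exact Subtype.ext (Subtype.ext (Subtype.ext this))

end Two

end CfsgLib.H6Ca
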