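import Cfsg.Agent.EqBase
import Cfsg.Agent.LibSolvCoprime2
import Cfsg.Agent.LibH2Gen2

/-! Conjugation on the abelianization of a normal subgroup; coprime action on a nilpotent group. -/

set_option autoImplicit false

namespace CfsgLib.H6

open Subgroup
open scoped commutatorElement

/-- the conjugation action on the abelianization of a normal subgroup -/
noncomputable def conjAb {Γ : Type*} [Group Γ] (K : Subgroup Γ) [K.Normal] :
    Γ →* MulAut (Abelianization K) where
  toFun g := MulEquiv.abelianizationCongr (MulAut.conjNormal g)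
  map_one' := by
    rw [map_one]; exact abelianizationCongr_refl
  map_mul' a b := by
    rw [map_mul]; exact (abelianizationCongr_trans _ _).symm

theorem conjAb_of {Γ : Type*} [Group Γ] (K : Subgroup Γ) [K.Normal] (g : Γ) (k : K) :
    conjAb K g (Abelianization.of k) = Abelianization.of (MulAut.conjNormal g k) := rfl

theorem commutator_le_of_conjAb {Γ : Type*} [Group Γ] (K : Subgroup Γ) [K.Normal] (A : Subgroup Γ)
    (h : ∀ a ∈ A, ∀ v, conjAb K a v = v) : ⁅K, A⁆ ≤ ⁅K, K⁆ := by
  rw [Subgroup.commutator_le]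
  intro k hk a ha
  have h1 := h a ha (Abelianization.of (⟨k, hk⟩⁻¹ : K))
  rw [conjAb_of] at h1
  have h2 : (⟨k, hk⟩⁻¹ : K)⁻¹ * MulAut.conjNormal a (⟨k, hk⟩⁻¹ : K) ∈ _root_.commutator K :=
    QuotientGroup.eq.mp h1.symm
  rw [← Subgroup.map_subtype_commutator]
  refine ⟨_, h2, ?_⟩
  rw [commutatorElement_def]
  show ((⟨k, hk⟩⁻¹ : K)⁻¹ * MulAut.conjNormal a (⟨k, hk⟩⁻¹ : K) : K).1 = _
  rw [inv_inv, Subgroup.coe_mul, MulAut.conjNormal_apply]
  simp [mul_assoc]

theorem coprime_centralizes_of_ab {Γ : Type*} [Group Γ] [Finite Γ] (K A : Subgroup Γ)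
    (hAK : A ≤ normalizer (K : Set Γ)) (hcop : (Nat.card A).Coprime (Nat.card K))
    (hnil : Group.IsNilpotent K) (h : ⁅K, A⁆ ≤ ⁅K, K⁆) : A ≤ centralizer (K : Set Γ) := by
  have hs : Group.IsSolvable K := inferInstance
  have h1 := CfsgLib.SolvCoprime.commutator_sup_centralizer A K hAK hcop (Or.inr hs)
  obtain ⟨H, hH⟩ : ∃ H, H = K ⊓ centralizer (A : Set Γ) := ⟨_, rfl⟩
  rw [← hH] at h1
  have hHK : H ≤ K := hH ▸ inf_le_left
  have h2 : H.subgroupOf K ⊔ frattini K = ⊤ := by
    rw [eq_top_iff]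
    have h3 : ⁅K, K⁆ ⊔ H = K := le_antisymm
      (sup_le (by rw [Subgroup.commutator_le]; intro a ha b hb
                  exact K.mul_mem (K.mul_mem (K.mul_mem ha hb) (K.inv_mem ha)) (K.inv_mem hb)) hHK)
      (by conv_lhs => rw [← h1]
          exact sup_le_sup_right h H)
    intro x _
    have h4 : (x : Γ) ∈ ⁅K, K⁆ ⊔ H := by rw [h3]; exact x.2
    have h5 : ((H.subgroupOf K) ⊔ _root_.commutator K).map K.subtype = ⁅K, K⁆ ⊔ H := by
      rw [Subgroup.map_sup, Subgroup.map_subtype_commutator, Subgroup.subgroupOf_map_subtype,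
        inf_of_le_left hHK, sup_comm]
    rw [← h5] at h4
    obtain ⟨y, hy, hyx⟩ := h4
    have h6 : y = x := Subtype.ext hyx
    rw [← h6]
    exact (sup_le_sup_left (CfsgLib.H2Gen2.commutator_le_frattini hnil) _) hy
  have h3 := frattini_nongenerating h2
  have h4 : K ≤ H := by rwa [Subgroup.subgroupOf_eq_top] at h3
  rw [Subgroup.le_centralizer_iff]
  exact h4.trans (hH ▸ inf_le_right)

end CfsgLib.H6
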