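import Cfsg.Agent.EqBase
import Cfsg.Agent.LibSolvCrit
import Cfsg.Agent.LibSolvCoprime2
import Cfsg.Agent.LibH6PSplit
import Cfsg.Agent.LibCores

/-! `p'`-elements detected on elements of order `p` (and 4); normal subgroups all of whose elements have
`p`-power class size. -/

set_option autoImplicit false

namespace CfsgLib.H6

open Subgroup CfsgLib.SolvCrit
open scoped commutatorElement

/-- `p` for odd `p`, and `4` for `p = 2` -/
def omExp (p : ℕ) : ℕ := if p = 2 then 4 else p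

theorem dvd_omExp {p : ℕ} : p ∣ omExp p := by
  unfold omExp; split_ifs with h
  · subst h; norm_num
  · exact dvd_rfl

theorem dvd_choose_omExp {p : ℕ} (hp : p.Prime) : p ∣ (omExp p).choose 2 := by
  unfold omExp; split_ifs with h
  · subst h; decide
  · exact hp.dvd_choose_self (by norm_num) (by have := hp.two_le; omega)

section crit
variable {G : Type*} [Group G] {p : ℕ}

theorem crit_comm {H : Subgroup G}
    (hHZ : ⁅H, (⊤ : Subgroup G)⁆ ≤ H ⊓ Subgroup.centralizer (H : Set G))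
    (hHp : ∀ x ∈ H, x ^ p ∈ H ⊓ Subgroup.centralizer (H : Set G)) {x y : G} (hx : x ∈ H)
    (hy : y ∈ H) : ∃ c, y * x = x * y * c ∧ (∀ z ∈ H, c * z = z * c) ∧ c ^ p = 1 := by
  obtain ⟨c, hc⟩ : ∃ c, c = y⁻¹ * x⁻¹ * y * x := ⟨_, rfl⟩
  have hcZ : c ∈ H ⊓ Subgroup.centralizer (H : Set G) := by
    apply hHZ
    have h1 : c = ⁅y⁻¹, x⁻¹⁆ := by rw [hc, commutatorElement_def]; group
    rw [h1]
    exact Subgroup.commutator_mem_commutator (H.inv_mem hy) trivial
  have hcH : ∀ z ∈ H, c * z = z * c := fun z hz => (Subgroup.mem_centralizer_iff.mp hcZ.2 z hz).symm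
  have hyc : x⁻¹ * y * x = y * c := by rw [hc]; group
  refine ⟨c, by rw [hc]; group, hcH, ?_⟩
  have h2 : (x⁻¹ * y * x) ^ p = x⁻¹ * y ^ p * x := by
    have := conj_pow (i := p) (a := x⁻¹) (b := y)
    rwa [inv_inv] at this
  have h3 : x⁻¹ * y ^ p * x = y ^ p := by
    have h4 := Subgroup.mem_centralizer_iff.mp (hHp y hy).2 x hx
    rw [mul_assoc, ← h4]; group
  rw [h3, hyc, (show Commute y c from (hcH y hy).symm).mul_pow] at h2
  exact mul_eq_left.mp h2

theorem crit_mul_pow (hp : p.Prime) {H : Subgroup G}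
    (hHZ : ⁅H, (⊤ : Subgroup G)⁆ ≤ H ⊓ Subgroup.centralizer (H : Set G))
    (hHp : ∀ x ∈ H, x ^ p ∈ H ⊓ Subgroup.centralizer (H : Set G)) {x y : G} (hx : x ∈ H)
    (hy : y ∈ H) : (x * y) ^ omExp p = x ^ omExp p * y ^ omExp p := by
  obtain ⟨c, h1, h2, h3⟩ := crit_comm hHZ hHp hx hy
  rw [mul_pow_of_commutator_central x y c h1 (h2 x hx) (h2 y hy)]
  obtain ⟨m, hm⟩ := dvd_choose_omExp hp
  rw [hm, pow_mul, h3, one_pow, mul_one]

/-- the elements of a critical subgroup of order dividing `p` (or `4`) -/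
def critOmega (hp : p.Prime) {H : Subgroup G}
    (hHZ : ⁅H, (⊤ : Subgroup G)⁆ ≤ H ⊓ Subgroup.centralizer (H : Set G))
    (hHp : ∀ x ∈ H, x ^ p ∈ H ⊓ Subgroup.centralizer (H : Set G)) : Subgroup G where
  carrier := {x | x ∈ H ∧ x ^ omExp p = 1}
  one_mem' := ⟨H.one_mem, one_pow _⟩
  mul_mem' := by
    rintro x y ⟨hx, hx1⟩ ⟨hy, hy1⟩
    refine ⟨H.mul_mem hx hy, ?_⟩
    rw [crit_mul_pow hp hHZ hHp hx hy, hx1, hy1, one_mul]
  inv_mem' := by
    rintro x ⟨hx, hx1⟩
    exact ⟨H.inv_mem hx, by rw [inv_pow, hx1, inv_one]⟩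

theorem critOmega_char (hp : p.Prime) {H : Subgroup G} (hH : H.Characteristic)
    (hHZ : ⁅H, (⊤ : Subgroup G)⁆ ≤ H ⊓ Subgroup.centralizer (H : Set G))
    (hHp : ∀ x ∈ H, x ^ p ∈ H ⊓ Subgroup.centralizer (H : Set G)) :
    (critOmega hp hHZ hHp).Characteristic := by
  rw [Subgroup.characteristic_iff_le_comap]
  rintro φ x ⟨hx, hx1⟩
  refine ⟨(Subgroup.characteristic_iff_le_comap.mp hH φ) hx, ?_⟩
  show (φ x) ^ omExp p = 1
  rw [← map_pow, hx1, map_one]

/-- `p'`-automorphisms fixing the elements of order dividing `p` (or `4`) of a critical subgroup. -/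
theorem crit_detect [Finite G] (hp : p.Prime) (hG : IsPGroup p G) {H : Subgroup G}
    (hH : H.Characteristic)
    (hHZ : ⁅H, (⊤ : Subgroup G)⁆ ≤ H ⊓ Subgroup.centralizer (H : Set G))
    (hC : Subgroup.centralizer (H : Set G) ≤ H)
    (hHp : ∀ x ∈ H, x ^ p ∈ H ⊓ Subgroup.centralizer (H : Set G))
    (a : MulAut G) (ha : Nat.Coprime (orderOf a) p)
    (h : ∀ x ∈ H, x ^ omExp p = 1 → a x = x) : a = 1 := by
  have hZc := center_map_characteristic H
  have haH : ∀ x ∈ H, a x ∈ H := fun x hx => (Subgroup.characteristic_iff_le_comap.mp hH a) hx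
  have haZ : ∀ x ∈ H ⊓ Subgroup.centralizer (H : Set G),
      a x ∈ H ⊓ Subgroup.centralizer (H : Set G) :=
    fun x hx => (Subgroup.characteristic_iff_le_comap.mp hZc a) hx
  have hZa := isMulCommutative_inf_centralizer H
  -- fix the centre of `H`
  have hk : ∀ (k : ℕ) (x : G), x ∈ H ⊓ Subgroup.centralizer (H : Set G) → x ^ p ^ k = 1 →
      a x = x := by
    intro k
    induction k with
    | zero =>
      intro x _ hx
      rw [pow_zero, pow_one] at hx
      rw [hx, map_one]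
    | succ k ih =>
      intro x hxZ hx
      have h1 : a (x ^ p) = x ^ p := ih (x ^ p) (pow_mem hxZ p) (by
        rw [← pow_mul, ← pow_succ']; exact hx)
      apply aut_fix_of_stable hG a ha
      have h2 : x⁻¹ * a x ∈ H := H.mul_mem (H.inv_mem hxZ.1) (haH x hxZ.1)
      apply h _ h2
      have hc : Commute x⁻¹ (a x) :=
        (Subgroup.mem_centralizer_iff.mp (haZ x hxZ).2 x⁻¹ (H.inv_mem hxZ.1))
      obtain ⟨m, hm⟩ := dvd_omExp (p := p)
      rw [hm, pow_mul, hc.mul_pow, inv_pow, ← map_pow, h1, inv_mul_cancel, one_pow]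
  have hZfix : ∀ x ∈ H ⊓ Subgroup.centralizer (H : Set G), a x = x := by
    intro x hx
    obtain ⟨k, hk'⟩ := isPGroup_iff_pow_pow_eq_one.mp hG x
    exact hk k x hx hk'
  have hHn : H.Normal := inferInstance
  apply aut_eq_one_of_fix hG H hC a ha
  intro x hx
  apply aut_fix_of_stable hG a ha
  apply h _ (H.mul_mem (H.inv_mem hx) (haH x hx))
  rw [crit_mul_pow hp hHZ hHp (H.inv_mem hx) (haH x hx), inv_pow, ← map_pow]
  have h3 : x ^ omExp p ∈ H ⊓ Subgroup.centralizer (H : Set G) := by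
    obtain ⟨m, hm⟩ := dvd_omExp (p := p)
    rw [hm, pow_mul]; exact pow_mem (hHp x hx) m
  rw [hZfix _ h3, inv_mul_cancel]

/-- `p'`-automorphisms of a `p`-group fixing all elements of order dividing `p` (or `4`) are trivial. -/
theorem aut_eq_one_of_fix_omExp [Finite G] (hp : p.Prime) (hG : IsPGroup p G)
    (a : MulAut G) (ha : Nat.Coprime (orderOf a) p)
    (h : ∀ x : G, x ^ omExp p = 1 → a x = x) : a = 1 := by
  obtain ⟨H, hH, -, hHZ, hC, hHp⟩ := exists_critical hp hG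
  exact crit_detect hp hG hH hHZ hC hHp a ha fun x _ hx => h x hx

end crit

/-- a normal `p`-subgroup whose elements all have `p`-power class size is centralized by `p'`-elements -/
theorem centralizes_of_pclass {G : Type*} [Group G] [Finite G] {p : ℕ} [hp : Fact p.Prime]
    (P : Sylow p G) : ∀ (n : ℕ) (D : Subgroup G), Nat.card D = n → D.Normal →
      D ≤ (P : Subgroup G) → (∀ x ∈ D, ∃ a : ℕ, (centralizer ({x} : Set G)).index = p ^ a) →
      ∀ y : G, (orderOf y).Coprime p → ∀ x ∈ D, y * x = x * y := by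
  intro n
  induction n using Nat.strong_induction_on with
  | _ n ih =>
  intro D hDn hD hDP hcl y hy x hx
  by_cases hb : D = ⊥
  · rw [hb, Subgroup.mem_bot] at hx
    rw [hx, mul_one, one_mul]
  have hDp : IsPGroup p D := P.2.to_le hDP
  obtain ⟨M, hM⟩ : ∃ M, M = ⁅D, (⊤ : Subgroup G)⁆ := ⟨_, rfl⟩
  have hMn : M.Normal := by rw [hM]; infer_instance
  have hlt : M < D := by
    refine lt_of_le_of_lt ?_ (CfsgLib.SolvCoprime.commutator_lt_of_pgroup hDp P.2
      (by rw [Subgroup.normalizer_eq_top]; exact le_top) hb)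
    rw [hM, Subgroup.commutator_le]
    intro x hx g _
    obtain ⟨a, ha⟩ := hcl x⁻¹ (D.inv_mem hx)
    obtain ⟨u, hu, hux⟩ := coprime_conj x⁻¹ (P : Subgroup G) (by
      rw [ha]
      exact Nat.Coprime.pow_left _ ((Nat.Prime.coprime_iff_not_dvd hp.out).mpr P.not_dvd_index)) g
    have h1 : ⁅x, g⁆ = ⁅x, u⁆ := by
      rw [commutatorElement_def, commutatorElement_def]
      calc x * g * x⁻¹ * g⁻¹ = x * (g * x⁻¹ * g⁻¹) := by group
        _ = x * (u * x⁻¹ * u⁻¹) := by rw [hux]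
        _ = x * u * x⁻¹ * u⁻¹ := by group
    rw [h1]
    exact Subgroup.commutator_mem_commutator hx hu
  have hcard : Nat.card M < n := by
    rw [← hDn]
    by_contra h
    exact hlt.ne (Subgroup.eq_of_le_of_card_ge hlt.le (not_lt.mp h))
  have hfix := ih _ hcard M rfl hMn (hlt.le.trans hDP) (fun x hx => hcl x (hlt.le hx)) y hy
  obtain ⟨t, ht⟩ : ∃ t, t = x⁻¹ * (y * x * y⁻¹) := ⟨_, rfl⟩
  have htM : t ∈ M := by
    have h1 : t = ⁅x⁻¹, y⁆ := by rw [ht, commutatorElement_def]; group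
    rw [h1, hM]
    exact Subgroup.commutator_mem_commutator (D.inv_mem hx) trivial
  have hyt := hfix t htM
  have hpow : ∀ k : ℕ, y ^ k * x * (y ^ k)⁻¹ = x * t ^ k := by
    intro k
    induction k with
    | zero => simp
    | succ k ihk =>
      have h2 : y * t ^ k = t ^ k * y := ((show Commute y t from hyt).pow_right k).eq
      calc y ^ (k + 1) * x * (y ^ (k + 1))⁻¹ = y * (y ^ k * x * (y ^ k)⁻¹) * y⁻¹ := by
            rw [pow_succ']; group
        _ = y * (x * t ^ k) * y⁻¹ := by rw [ihk]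
        _ = (y * x * y⁻¹) * (y * t ^ k * y⁻¹) := by group
        _ = (x * t) * (t ^ k) := by rw [h2, ht]; group
        _ = x * t ^ (k + 1) := by rw [pow_succ', mul_assoc]
  have h3 := hpow (orderOf y)
  rw [pow_orderOf_eq_one, inv_one, one_mul, mul_one, left_eq_mul] at h3
  obtain ⟨k, hk⟩ := (IsPGroup.iff_orderOf.mp hDp) ⟨t, hlt.le htM⟩
  rw [Subgroup.orderOf_mk] at hk
  have h4 : orderOf t ∣ Nat.gcd (orderOf y) (p ^ k) :=
    Nat.dvd_gcd (orderOf_dvd_of_pow_eq_one h3) (hk ▸ dvd_rfl)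
  rw [(Nat.Coprime.pow_right k hy), Nat.dvd_one, orderOf_eq_one_iff] at h4
  rw [h4] at ht
  have h5 : y * x * y⁻¹ = x := by
    calc y * x * y⁻¹ = x * (x⁻¹ * (y * x * y⁻¹)) := by group
      _ = x := by rw [← ht, mul_one]
  rw [mul_inv_eq_iff_eq_mul] at h5
  exact h5

end CfsgLib.H6
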