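import Cfsg.Agent.EqBase
import Cfsg.Agent.LibCores

/-! Equal order pairs. -/

set_option autoImplicit false

namespace CfsgLib.H6

open Subgroup Cfsg CfsgLib.Cores

theorem eqord_pCore {G : Type*} [Group G] [Finite G] (N : Subgroup G)
    (heq : ∀ x : G, x ∉ N → ∀ n ∈ N, orderOf (x * n) = orderOf x) (p : ℕ) [Fact p.Prime]
    (x : G) (hx : x ∈ pCore p G) (hxN : x ∉ N) : IsPGroup p N := by
  intro n
  obtain ⟨k, hk⟩ := (pCore_isPGroup (G := G) p) ⟨x, hx⟩
  have hk' : x ^ p ^ k = 1 := congrArg Subtype.val hk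
  have h1 : (x * n) ^ p ^ k = 1 := by
    rw [← orderOf_dvd_iff_pow_eq_one, heq x hxN n n.2, orderOf_dvd_iff_pow_eq_one]
    exact hk'
  have h2 : (QuotientGroup.mk (n : G) : G ⧸ pCore p G) ^ p ^ k = 1 := by
    have e : (QuotientGroup.mk (x * (n : G)) : G ⧸ pCore p G) = QuotientGroup.mk (n : G) := by
      rw [QuotientGroup.mk_mul, (QuotientGroup.eq_one_iff x).mpr hx, one_mul]
    rw [← e, ← QuotientGroup.mk_pow, h1, QuotientGroup.mk_one]
  rw [← QuotientGroup.mk_pow, QuotientGroup.eq_one_iff] at h2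
  obtain ⟨j, hj⟩ := (pCore_isPGroup (G := G) p) ⟨_, h2⟩
  have hj' : ((n : G) ^ p ^ k) ^ p ^ j = 1 := congrArg Subtype.val hj
  refine ⟨k + j, ?_⟩
  apply Subtype.ext
  rw [Subgroup.coe_pow, pow_add, pow_mul, hj']
  rfl

/-- Either `F(G) ≤ N`, or `N` is a `p`-group and `F(G) = O_p(G)`. -/
theorem eqord_fitting {G : Type*} [Group G] [Finite G] (N : Subgroup G) [N.Normal] (hN1 : N ≠ ⊥)
    (heq : ∀ x : G, x ∉ N → ∀ n ∈ N, orderOf (x * n) = orderOf x) :
    fittingSubgroup G ≤ N ∨ ∃ p : ℕ, p.Prime ∧ IsPGroup p N ∧ N ≤ fittingSubgroup G ∧ IsPGroup p (fittingSubgroup G) := by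
  classical
  by_cases hF : fittingSubgroup G ≤ N
  · exact Or.inl hF
  right
  rw [fittingSubgroup_eq_iSup_pCore, iSup_le_iff] at hF
  push Not at hF
  obtain ⟨⟨p, hp⟩, hpN⟩ := hF
  haveI : Fact p.Prime := ⟨hp⟩
  obtain ⟨x, hx, hxN⟩ := SetLike.not_le_iff_exists.mp hpN
  have hNp : IsPGroup p N := eqord_pCore N heq p x hx hxN
  refine ⟨p, hp, hNp, le_fittingSubgroup inferInstance hNp.isNilpotent, ?_⟩
  have hle : fittingSubgroup G ≤ pCore p G := by
    rw [fittingSubgroup_eq_iSup_pCore, iSup_le_iff]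
    rintro ⟨q, hq⟩
    haveI : Fact q.Prime := ⟨hq⟩
    by_cases hqp : q = p
    · subst hqp; exact le_refl _
    · have hbot : pCore q G = ⊥ := by
        by_contra hne
        obtain ⟨y, hy, hy1⟩ := (Subgroup.bot_or_exists_ne_one _).resolve_left hne
        have hyN : y ∉ N := by
          intro hyN
          obtain ⟨k, hk⟩ := (pCore_isPGroup (G := G) q) ⟨y, hy⟩
          obtain ⟨j, hj⟩ := hNp ⟨y, hyN⟩
          have hk' : y ^ q ^ k = 1 := congrArg Subtype.val hk
          have hj' : y ^ p ^ j = 1 := congrArg Subtype.val hj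
          apply hy1
          rw [← orderOf_eq_one_iff]
          have hc : (q ^ k).Coprime (p ^ j) := Nat.Coprime.pow _ _ ((Nat.coprime_primes hq hp).mpr hqp)
          exact Nat.dvd_one.mp (hc ▸ Nat.dvd_gcd (orderOf_dvd_of_pow_eq_one hk') (orderOf_dvd_of_pow_eq_one hj'))
        have hNq : IsPGroup q N := eqord_pCore N heq q y hy hyN
        apply hN1
        rw [eq_bot_iff]
        intro n hn
        obtain ⟨k, hk⟩ := hNq ⟨n, hn⟩
        obtain ⟨j, hj⟩ := hNp ⟨n, hn⟩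
        have hk' : n ^ q ^ k = 1 := congrArg Subtype.val hk
        have hj' : n ^ p ^ j = 1 := congrArg Subtype.val hj
        rw [Subgroup.mem_bot, ← orderOf_eq_one_iff]
        have hc : (q ^ k).Coprime (p ^ j) := Nat.Coprime.pow _ _ ((Nat.coprime_primes hq hp).mpr hqp)
        exact Nat.dvd_one.mp (hc ▸ Nat.dvd_gcd (orderOf_dvd_of_pow_eq_one hk') (orderOf_dvd_of_pow_eq_one hj'))
      show pCore q G ≤ _
      rw [hbot]; exact bot_le
  exact (pCore_isPGroup (G := G) p).to_le hle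

end CfsgLib.H6
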