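import Cfsg.Agent.EqBase
import Cfsg.Agent.LibH6Basic

/-! A maximal normal abelian subgroup of a finite `p`-group is self-centralizing. -/

set_option autoImplicit false

namespace CfsgLib.H6

open Subgroup

theorem exists_selfcentralizing_abelian {P : Type*} [Group P] [Finite P] {p : ℕ} [Fact p.Prime] (hP : IsPGroup p P) :
    ∃ A : Subgroup P, A.Normal ∧ (∀ a ∈ A, ∀ b ∈ A, a * b = b * a) ∧ centralizer (A : Set P) = A := by
  classical
  obtain ⟨A, ⟨hAn, hA⟩, hmax⟩ : ∃ A : Subgroup P, (A.Normal ∧ ∀ a ∈ A, ∀ b ∈ A, a * b = b * a) ∧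
      ∀ B : Subgroup P, (B.Normal ∧ ∀ a ∈ B, ∀ b ∈ B, a * b = b * a) → A ≤ B → B = A := by
    obtain ⟨A, hA, hm⟩ := Set.Finite.exists_maximalFor (fun K : Subgroup P => Nat.card K)
      {A : Subgroup P | A.Normal ∧ ∀ a ∈ A, ∀ b ∈ A, a * b = b * a} (Set.toFinite _)
      ⟨⊥, inferInstance, by
        intro a ha b hb
        rw [Subgroup.mem_bot] at ha hb
        rw [ha, hb]⟩
    refine ⟨A, hA, fun B hB hAB => ?_⟩
    symm
    exact Subgroup.eq_of_le_of_card_ge hAB (hm hB (Subgroup.card_le_of_le hAB))
  refine ⟨A, hAn, hA, ?_⟩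
  have hAC : A ≤ centralizer (A : Set P) := by
    intro a ha
    rw [mem_centralizer_iff]
    intro b hb
    exact hA b hb a ha
  apply le_antisymm _ hAC
  by_contra hne
  -- nontrivial image in the quotient
  let C : Subgroup P := centralizer (A : Set P)
  haveI : C.Normal := Subgroup.normal_centralizer
  let π := QuotientGroup.mk' A
  have hQ : IsPGroup p (P ⧸ A) := hP.to_quotient A
  have hCne : C.map π ≠ ⊥ := by
    intro h
    apply hne
    intro c hc
    have : π c ∈ C.map π := ⟨c, hc, rfl⟩
    rw [h, Subgroup.mem_bot] at this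
    exact (QuotientGroup.eq_one_iff c).mp this
  haveI : (C.map π).Normal := Subgroup.Normal.map inferInstance π (QuotientGroup.mk'_surjective A)
  obtain ⟨z, hz, hz1, hzc⟩ := exists_central_of_pgroup (p := p) (K := (⊤ : Subgroup (P ⧸ A))) (H := C.map π)
    (hQ.to_subgroup ⊤) le_top (by rw [Subgroup.normalizer_eq_top_iff.mpr inferInstance]) hCne
  obtain ⟨x, hxC, rfl⟩ := hz
  have hxA : x ∉ A := fun h => hz1 ((QuotientGroup.eq_one_iff x).mpr h)
  let B : Subgroup P := A ⊔ zpowers x
  have hxB : x ∈ B := le_sup_right (a := A) (mem_zpowers x)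
  have hxz : zpowers x ≤ C := by rw [zpowers_le]; exact hxC
  have hBn : B.Normal := by
    constructor
    intro b hb g
    have hle : B ≤ B.comap (MulAut.conj g).toMonoidHom := by
      refine sup_le ?_ ?_
      · intro a ha
        show g * a * g⁻¹ ∈ B
        exact le_sup_left (a := A) (Subgroup.Normal.conj_mem hAn a ha g)
      · rw [zpowers_le]
        show g * x * g⁻¹ ∈ B
        have h1 : π (g * x * g⁻¹) = π x := by
          rw [map_mul, map_mul, hzc (π g) trivial, ← map_mul, ← map_mul, mul_inv_cancel_right]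
        have h2 : x⁻¹ * (g * x * g⁻¹) ∈ A := by
          rw [← QuotientGroup.eq]
          exact h1.symm
        have := mul_mem hxB (le_sup_left (a := A) (b := zpowers x) h2)
        rwa [mul_inv_cancel_left] at this
    exact hle hb
  have hBc : B ≤ centralizer (B : Set P) := by
    refine sup_le ?_ ?_
    · rw [Subgroup.le_centralizer_iff]
      exact sup_le hAC hxz
    · rw [Subgroup.le_centralizer_iff]
      refine sup_le ?_ ?_
      · rw [Subgroup.le_centralizer_iff]
        exact hxz
      · intro y hy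
        obtain ⟨i, rfl⟩ := mem_zpowers_iff.mp hy
        rw [mem_centralizer_iff]
        intro w hw
        obtain ⟨j, rfl⟩ := mem_zpowers_iff.mp hw
        rw [← zpow_add, ← zpow_add, add_comm]
  have hBA := hmax B ⟨hBn, fun a ha b hb => (mem_centralizer_iff.mp (hBc hb) a ha)⟩ le_sup_left
  exact hxA (hBA ▸ hxB)

end CfsgLib.H6
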