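import Cfsg.Agent.EqBase
import Cfsg.Agent.LibHH9

/-! A norm argument: if `R` acts on the abelian group `V`, `g` normalizes `R` and every `r g` has order
dividing `p` and satisfies the norm relation, then `R` acts trivially. -/

set_option autoImplicit false

namespace CfsgLib.H6

open Subgroup

theorem norm_trivial {A V : Type*} [Group A] [Finite A] [CommGroup V] {p : ℕ} (hp : p.Prime)
    (ρ : A →* MulAut V) (R : Subgroup A) (hVR : ∀ v : V, v ^ Nat.card R = 1 → v = 1)
    (g : A) (hgR : ∀ x ∈ R, g * x * g⁻¹ ∈ R) (hpow : ∀ r ∈ R, (r * g) ^ p = 1)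
    (hnorm : ∀ r ∈ R, ∀ v : V, ∏ i ∈ Finset.range p, ρ ((r * g) ^ i) v = 1) :
    ∀ y ∈ R, ∀ v, ρ y v = v := by
  classical
  letI : Fintype ↥R := Fintype.ofFinite _
  -- the relative norm
  set N : V → V := fun w => ∏ y : ↥R, ρ (y : A) w with hN
  have hNfix : ∀ y ∈ R, ∀ w, ρ y (N w) = N w := by
    intro y hy w
    rw [hN]
    simp only
    rw [map_prod]
    rw [← Equiv.prod_comp (Equiv.mulLeft (⟨y, hy⟩ : ↥R)) (fun z : ↥R => ρ (z : A) w)]
    refine Finset.prod_congr rfl fun z _ => ?_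
    simp only [Equiv.coe_mulLeft, Subgroup.coe_mul, map_mul]
    rfl
  have hmem : ∀ (i : ℕ), ∀ r ∈ R, (r * g) ^ i * (g ^ i)⁻¹ ∈ R := by
    intro i
    induction i with
    | zero => intro r _; simp
    | succ i ih =>
      intro r hr
      have h1 := hgR _ (ih r hr)
      have h2 := R.mul_mem hr h1
      have e : r * (g * ((r * g) ^ i * (g ^ i)⁻¹) * g⁻¹) = (r * g) ^ (i + 1) * (g ^ (i + 1))⁻¹ := by
        rw [pow_succ' (r * g), pow_succ' g]; group
      rwa [e] at h2
  have hNi : ∀ i : ℕ, 0 < i → i < p → ∀ v, ∏ x : ↥R, ρ (((x : A) * g) ^ i) v = N (ρ (g ^ i) v) := by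
    intro i hi hip v
    have hcop : i.Coprime p := by
      rw [Nat.coprime_comm]
      exact (Nat.Prime.coprime_iff_not_dvd hp).2 (Nat.not_dvd_of_pos_of_lt hi hip)
    obtain ⟨j, -, hj⟩ := Nat.exists_mul_mod_eq_one_of_coprime hcop hp.one_lt
    have hij : i * j = p * (i * j / p) + 1 := by
      conv_rhs => rw [← hj]
      exact (Nat.div_add_mod (i * j) p).symm
    have hback : ∀ r ∈ R, ((r * g) ^ i) ^ j = r * g := by
      intro r hr
      rw [← pow_mul, hij, pow_add, pow_mul, hpow r hr, one_pow, one_mul, pow_one]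
    let ψ : ↥R → ↥R := fun x => ⟨((x : A) * g) ^ i * (g ^ i)⁻¹, hmem i x x.2⟩
    have hψ : Function.Injective ψ := by
      intro x y hxy
      have h1 : ((x : A) * g) ^ i * (g ^ i)⁻¹ = ((y : A) * g) ^ i * (g ^ i)⁻¹ :=
        congrArg Subtype.val hxy
      have h2 : ((x : A) * g) ^ i = ((y : A) * g) ^ i := mul_right_cancel h1
      have h3 : (x : A) * g = (y : A) * g := by
        rw [← hback x x.2, ← hback y y.2, h2]
      exact Subtype.ext (mul_right_cancel h3)
    have hb : Function.Bijective ψ := Finite.injective_iff_bijective.1 hψ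
    rw [hN]
    simp only
    rw [← Function.Bijective.prod_comp hb (fun z : ↥R => ρ (z : A) (ρ (g ^ i) v))]
    refine Finset.prod_congr rfl fun x _ => ?_
    show _ = ρ (((x : A) * g) ^ i * (g ^ i)⁻¹) (ρ (g ^ i) v)
    rw [← MulAut.mul_apply, ← map_mul]
    congr 2
    group
  have hcard : ∀ v : V, v ^ Nat.card ↥R = (∏ i ∈ Finset.range (p - 1), N (ρ (g ^ (i + 1)) v))⁻¹ := by
    intro v
    have h1 : ∏ i ∈ Finset.range p, ∏ x : ↥R, ρ (((x : A) * g) ^ i) v = 1 := by
      rw [Finset.prod_comm]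
      exact Finset.prod_eq_one fun x _ => hnorm x x.2 v
    have h3 : p = (p - 1) + 1 := (Nat.sub_add_cancel hp.one_le).symm
    rw [h3, Finset.prod_range_succ'] at h1
    have h4 : ∏ x : ↥R, ρ (((x : A) * g) ^ 0) v = v ^ Nat.card ↥R := by
      have h5 : ∀ x : ↥R, ρ (((x : A) * g) ^ 0) v = v := by
        intro x
        rw [pow_zero, map_one]; rfl
      rw [Finset.prod_congr rfl fun x _ => h5 x, Finset.prod_const, Nat.card_eq_fintype_card]
      rfl
    rw [h4] at h1
    have h6 : ∏ i ∈ Finset.range (p - 1), ∏ x : ↥R, ρ (((x : A) * g) ^ (i + 1)) v =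
        ∏ i ∈ Finset.range (p - 1), N (ρ (g ^ (i + 1)) v) := by
      refine Finset.prod_congr rfl fun i hi => ?_
      exact hNi (i + 1) (Nat.succ_pos i) (by have := Finset.mem_range.1 hi; omega) v
    rw [h6] at h1
    exact eq_inv_of_mul_eq_one_right h1
  intro y hy v
  have h1 : ρ y (v ^ Nat.card ↥R) = v ^ Nat.card ↥R := by
    rw [hcard, map_inv, map_prod]
    congr 1
    exact Finset.prod_congr rfl fun i _ => hNfix y hy _
  have h2 : (ρ y v * v⁻¹) ^ Nat.card ↥R = 1 := by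
    rw [mul_pow, inv_pow, ← map_pow, h1, mul_inv_cancel]
  exact mul_inv_eq_one.1 (hVR _ h2)

/-- `(v x)^n = v · v^x ⋯ · x^n` in any group, in the form of a product in an abelian quotient. -/
theorem mul_pow_norm {Γ V : Type*} [Group Γ] [CommGroup V] (K : Subgroup Γ) [hK : K.Normal]
    (π : K →* V) (ρ : Γ →* MulAut V)
    (hρ : ∀ (g : Γ) (k : K), ρ g (π k) = π (MulAut.conjNormal g k)) (x : Γ) (v : K) :
    ∀ n : ℕ, ∃ w : K, (w : Γ) * x ^ n = ((v : Γ) * x) ^ n ∧
      π w = ∏ i ∈ Finset.range n, ρ (x ^ i) (π v) := by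
  intro n
  induction n with
  | zero => exact ⟨1, by simp, by simp⟩
  | succ n ih =>
    obtain ⟨w, hw1, hw2⟩ := ih
    refine ⟨w * MulAut.conjNormal (x ^ n) v, ?_, ?_⟩
    · rw [pow_succ ((v : Γ) * x), ← hw1, Subgroup.coe_mul, MulAut.conjNormal_apply, pow_succ]
      group
    · rw [map_mul, hw2, Finset.prod_range_succ, hρ]

end CfsgLib.H6
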