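import Mathlib
import Cfsg.Agent.LibSolvCoprime3

set_option autoImplicit false

namespace CfsgLib.H6

open Subgroup

theorem mul_pow_of_comm {P : Type*} [Group P] {x b w : P} (h : b * x = x * w * b) (hwx : w * x = x * w)
    (hwb : w * b = b * w) (n : ℕ) : (x * b) ^ n = x ^ n * b ^ n * w ^ (n.choose 2) := by
  have hx : Commute w x := hwx
  have hb : Commute w b := hwb
  have h1 : ∀ n : ℕ, b ^ n * x = x * w ^ n * b ^ n := by
    intro n
    induction n with
    | zero => simp
    | succ n ih =>
      rw [pow_succ', mul_assoc, ih]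
      calc b * (x * w ^ n * b ^ n) = (b * x) * w ^ n * b ^ n := by group
        _ = x * w * (b * w ^ n) * b ^ n := by rw [h]; group
        _ = x * w * (w ^ n * b) * b ^ n := by rw [(hb.pow_left n).eq]
        _ = x * w ^ (n + 1) * (b * b ^ n) := by rw [pow_succ' w]; group
        _ = _ := by rfl
  induction n with
  | zero => simp
  | succ n ih =>
    rw [pow_succ, ih]
    have e : (n + 1).choose 2 = n + n.choose 2 := by
      rw [Nat.choose_succ_succ' n 1, Nat.choose_one_right]
    rw [e, pow_add, pow_succ x, pow_succ b]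
    have h2 : w ^ n * (b ^ n * b) = (b ^ n * b) * w ^ n := by
      rw [← pow_succ]; exact ((hb.pow_left n).pow_right (n + 1)).eq
    have hc1 : Commute (w ^ (n.choose 2)) (x * b) := ((hx.mul_right hb).pow_left _)
    calc x ^ n * b ^ n * w ^ n.choose 2 * (x * b) = x ^ n * b ^ n * (w ^ n.choose 2 * (x * b)) := by group
      _ = x ^ n * b ^ n * (x * b * w ^ n.choose 2) := by rw [hc1.eq]
      _ = x ^ n * (b ^ n * x) * b * w ^ n.choose 2 := by group
      _ = x ^ n * (x * w ^ n * b ^ n) * b * w ^ n.choose 2 := by rw [h1]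
      _ = x ^ n * x * (w ^ n * (b ^ n * b)) * w ^ n.choose 2 := by group
      _ = x ^ n * x * ((b ^ n * b) * w ^ n) * w ^ n.choose 2 := by rw [h2]
      _ = _ := by group

theorem odd_pow_congr {p k : ℕ} [hp : Fact p.Prime] (hp2 : p ≠ 2) {r : ℤ} (h : ((p : ℤ) ^ (k + 1)) ∣ r ^ p - 1) :
    ((p : ℤ) ^ k ∣ r - 1) ∧ (p : ℤ) ∣ r - 1 := by
  have h0 : (p : ℤ) ∣ r ^ p - 1 := (dvd_pow_self (p : ℤ) (Nat.succ_ne_zero k)).trans h
  have h1 : (p : ℤ) ∣ r - 1 := by
    have h2 : ((r ^ p - 1 : ℤ) : ZMod p) = 0 := (ZMod.intCast_zmod_eq_zero_iff_dvd _ p).mpr h0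
    rw [← ZMod.intCast_zmod_eq_zero_iff_dvd]
    push_cast at h2 ⊢
    rwa [ZMod.pow_card] at h2
  refine ⟨?_, h1⟩
  have hr : ¬ (p : ℤ) ∣ r := by
    intro h2
    have h3 := dvd_sub h2 h1
    rw [sub_sub_cancel] at h3
    have := Int.natAbs_dvd_natAbs.mpr h3
    simp at this
    exact hp.out.one_lt.ne' this
  have h4 := Int.emultiplicity_pow_sub_pow hp.out (Nat.Prime.odd_of_ne_two hp.out hp2) (by simpa using h1) hr p (x := r) (y := 1)
  rw [one_pow] at h4
  rw [pow_dvd_iff_le_emultiplicity] at h ⊢
  rw [h4] at h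
  have h5 : emultiplicity p p = 1 := by
    have := emultiplicity_pow_self (p := p) hp.out.ne_zero (Nat.isUnit_iff.not.mpr hp.out.one_lt.ne') 1
    simpa using this
  rw [h5] at h
  push_cast at h
  exact (ENat.add_le_add_iff_right (by simp)).mp h

theorem isCyclic_of_no_square {p : ℕ} [hp : Fact p.Prime] (hp2 : p ≠ 2) : ∀ (n : ℕ) (P : Type*) [Group P] [Finite P],
    Nat.card P = p ^ n → (∀ B : Subgroup P, Nat.card B = p ^ 2 → (∀ b ∈ B, b ^ p = 1) → False) → IsCyclic P := by
  intro n
  induction n with
  | zero =>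
    intro P _ _ hc _
    rw [pow_zero] at hc
    have := (Nat.card_eq_one_iff_unique.mp hc).1
    exact isCyclic_of_subsingleton
  | succ k ih =>
    intro P _ _ hc hno
    by_contra hcyc
    have hnab : ¬ ∀ a b : P, a * b = b * a := by
      intro hab
      obtain ⟨r, B, hr, hB, hBe⟩ := CfsgLib.SolvCoprime.exists_sq_of_not_isCyclic hab hcyc
      have h1 : Nat.card B ∣ Nat.card P := card_subgroup_dvd_card B
      rw [hB, hc] at h1
      have h2 : r = p := by
        have h3 : r ∣ p ^ (k + 1) := (dvd_pow_self r two_ne_zero).trans h1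
        exact (Nat.prime_dvd_prime_iff_eq hr hp.out).mp (hr.dvd_of_dvd_pow h3)
      rw [h2] at hB hBe
      exact hno B hB hBe
    -- a maximal subgroup
    obtain ⟨M, hM⟩ := Sylow.exists_subgroup_card_pow_prime (G := P) p (n := k) (by rw [hc]; exact pow_dvd_pow p (Nat.le_succ k))
    have hMi : M.index = p := by
      have h1 := M.card_mul_index
      rw [hM, hc, pow_succ] at h1
      exact Nat.eq_of_mul_eq_mul_left (pow_pos hp.out.pos k) h1
    have hMn : M.Normal := by
      apply Subgroup.normal_of_index_eq_minFac_card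
      rw [hMi, hc, hp.out.pow_minFac (Nat.succ_ne_zero k)]
    have hMc : IsCyclic M := by
      apply ih M hM
      intro B hB hBe
      apply hno (B.map M.subtype)
      · rw [card_map_of_injective M.subtype_injective, hB]
      · rintro _ ⟨b, hb, rfl⟩
        rw [← map_pow, hBe b hb, map_one]
    obtain ⟨⟨a, haM⟩, hagen⟩ := hMc.exists_generator
    have hMa : ∀ x ∈ M, ∃ i : ℤ, x = a ^ i := by
      intro x hx
      obtain ⟨i, hi⟩ := mem_zpowers_iff.mp (hagen ⟨x, hx⟩)
      exact ⟨i, (congrArg Subtype.val hi).symm⟩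
    have hzM : zpowers a = M := by
      apply le_antisymm
      · rw [zpowers_le]; exact haM
      · intro x hx
        obtain ⟨i, rfl⟩ := hMa x hx
        exact zpow_mem (mem_zpowers a) i
    have hao : orderOf a = p ^ k := by rw [← Nat.card_zpowers, hzM, hM]
    have hapow : ∀ i : ℤ, a ^ i = 1 ↔ (p : ℤ) ^ k ∣ i := by
      intro i
      rw [← orderOf_dvd_iff_zpow_eq_one, hao]
      push_cast
      rfl
    -- k ≥ 1
    obtain ⟨m, rfl⟩ : ∃ m, k = m + 1 := by
      rcases k with _ | m
      · exfalso
        rw [zero_add, pow_one] at hc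
        exact hcyc (isCyclic_of_prime_card hc)
      · exact ⟨m, rfl⟩
    -- an element outside
    obtain ⟨b, hb⟩ : ∃ b, b ∉ M := by
      by_contra hall
      push Not at hall
      have : M = ⊤ := by rw [eq_top_iff]; exact fun x _ => hall x
      rw [this, index_top] at hMi
      exact hp.out.one_lt.ne hMi
    obtain ⟨r, hr⟩ := hMa (b * a * b⁻¹) (hMn.conj_mem a haM b)
    have hconj : ∀ i : ℤ, b * a ^ i * b⁻¹ = a ^ (r * i) := by
      intro i
      have := map_zpow (MulAut.conj b) a i
      rw [MulAut.conj_apply, MulAut.conj_apply, hr, ← zpow_mul] at this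
      exact this
    have hconjn : ∀ n : ℕ, b ^ n * a * (b ^ n)⁻¹ = a ^ (r ^ n) := by
      intro n
      induction n with
      | zero => simp
      | succ n ihn =>
        have e : b ^ (n + 1) * a * (b ^ (n + 1))⁻¹ = b * (b ^ n * a * (b ^ n)⁻¹) * b⁻¹ := by
          rw [pow_succ']; group
        rw [e, ihn, hconj, pow_succ']
    have hbp : b ^ p ∈ M := by
      have := pow_index_mem M b
      rwa [hMi] at this
    obtain ⟨j, hj⟩ := hMa _ hbp
    have hrp : (p : ℤ) ^ (m + 1) ∣ r ^ p - 1 := by
      rw [← hapow, zpow_sub, zpow_one, ← hconjn, hj]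
      have h1 : Commute (a ^ j) a := (Commute.refl a).zpow_left j
      rw [h1.eq]; group
    obtain ⟨hr1, hr2⟩ := odd_pow_congr hp2 hrp
    -- p divides j
    have hpj : (p : ℤ) ∣ j := by
      by_contra hpj
      apply hcyc
      have h1 : a ∈ zpowers (a ^ j) := by
        have hcop : IsCoprime j (p ^ (m + 1) : ℤ) := by
          apply IsCoprime.pow_right
          exact ((Nat.prime_iff_prime_int.mp hp.out).coprime_iff_not_dvd.mpr hpj).symm
        obtain ⟨u, v, huv⟩ := hcop
        refine ⟨u, ?_⟩
        show (a ^ j) ^ u = a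
        rw [← zpow_mul]
        have h2 : a ^ (j * u - 1) = 1 := by
          rw [hapow]
          exact ⟨-v, by linear_combination huv⟩
        rw [zpow_sub, zpow_one, mul_inv_eq_one] at h2
        exact h2
      have h2 : zpowers b = ⊤ := by
        have h3 : M ≤ zpowers b := by
          rw [← hzM, zpowers_le]
          rw [← hj] at h1
          exact (zpowers_le.mpr (npow_mem_zpowers b p)) h1
        have h4 := relIndex_mul_index h3
        rw [hMi] at h4
        rcases (Nat.dvd_prime hp.out).mp (⟨_, h4.symm.trans (mul_comm _ _)⟩ : (zpowers b).index ∣ p) with h5 | h5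
        · exact index_eq_one.mp h5
        · exfalso
          rw [h5] at h4
          have h6 : M.relIndex (zpowers b) = 1 := Nat.eq_of_mul_eq_mul_right hp.out.pos (by rw [h4, one_mul])
          rw [relIndex_eq_one] at h6
          exact hb (h6 (mem_zpowers b))
      refine ⟨b, fun x => ?_⟩
      have h3 : x ∈ zpowers b := by rw [h2]; trivial
      exact h3
    obtain ⟨i, rfl⟩ := hpj
    -- the element u
    set x : P := a ^ (-i) with hx
    set w : P := a ^ ((r - 1) * (-i)) with hw
    have hbx : b * x = x * w * b := by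
      have h1 := hconj (-i)
      rw [← hx] at h1
      have h2 : b * x = (b * x * b⁻¹) * b := by group
      rw [h2, h1, hx, hw, ← zpow_add]
      congr 2
      ring
    have hwx : w * x = x * w := by rw [hx, hw, ← zpow_add, ← zpow_add, add_comm]
    have hr3 : (p : ℤ) ^ (m + 1) ∣ (r - 1) * (r - 1) := by
      rw [pow_succ]; exact mul_dvd_mul hr1 hr2
    have hwb : w * b = b * w := by
      have h1 := hconj ((r - 1) * (-i))
      rw [← hw] at h1
      have h2 : a ^ (r * ((r - 1) * (-i))) = w := by
        have h3 : a ^ (r * ((r - 1) * (-i)) - (r - 1) * (-i)) = 1 := by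
          rw [hapow]
          have : r * ((r - 1) * (-i)) - (r - 1) * (-i) = (r - 1) * (r - 1) * (-i) := by ring
          rw [this]; exact hr3.mul_right _
        rw [zpow_sub, mul_inv_eq_one] at h3
        exact h3
      rw [h2] at h1
      exact (mul_inv_eq_iff_eq_mul.mp h1).symm
    have hwp : w ^ p = 1 := by
      rw [hw, ← zpow_natCast, ← zpow_mul, hapow, pow_succ]
      have : (r - 1) * -i * (p : ℤ) = (r - 1) * p * (-i) := by ring
      rw [this]
      exact (mul_dvd_mul_right hr1 _).mul_right _
    have hup : (x * b) ^ p = 1 := by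
      rw [mul_pow_of_comm hbx hwx hwb, hj]
      have h1 : w ^ (p.choose 2) = 1 := by
        obtain ⟨c, hc⟩ := hp.out.dvd_choose_self (k := 2) two_ne_zero (lt_of_le_of_ne hp.out.two_le (Ne.symm hp2))
        rw [hc, pow_mul, hwp, one_pow]
      rw [h1, mul_one, hx, ← zpow_natCast, ← zpow_mul, ← zpow_add]
      have : -i * (p : ℤ) + p * i = 0 := by ring
      rw [this, zpow_zero]
    have hxM : x ∈ M := by rw [hx]; exact zpow_mem haM _
    have huM : x * b ∉ M := by
      intro h
      apply hb
      have := M.mul_mem (M.inv_mem hxM) h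
      simpa using this
    set u : P := x * b with hu
    have hu1 : u ≠ 1 := by
      intro h
      apply huM; rw [h]; exact M.one_mem
    have huo : orderOf u = p := orderOf_eq_prime hup hu1
    set v : P := a ^ ((p : ℤ) ^ m) with hv
    have hvM : v ∈ M := zpow_mem haM _
    have hvp : v ^ p = 1 := by
      rw [hv, ← zpow_natCast, ← zpow_mul, hapow, pow_succ]
    have hv1 : v ≠ 1 := by
      rw [hv, Ne, hapow]
      intro h
      have h2 : (p : ℕ) ^ (m + 1) ∣ p ^ m := by exact_mod_cast h
      have h3 := Nat.le_of_dvd (pow_pos hp.out.pos m) h2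
      exact absurd h3 (not_le.mpr (Nat.pow_lt_pow_right hp.out.one_lt (Nat.lt_succ_self m)))
    have hvo : orderOf v = p := orderOf_eq_prime hvp hv1
    have huv : Commute v u := by
      have h1 : Commute v x := by
        rw [hv, hx]
        exact ((Commute.refl a).zpow_left _).zpow_right _
      have h2 : Commute v b := by
        have h3 := hconj ((p : ℤ) ^ m)
        have h4 : a ^ (r * (p : ℤ) ^ m) = v := by
          have h5 : a ^ (r * (p : ℤ) ^ m - (p : ℤ) ^ m) = 1 := by
            rw [hapow, pow_succ]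
            have : r * (p : ℤ) ^ m - (p : ℤ) ^ m = (p : ℤ) ^ m * (r - 1) := by ring
            rw [this]
            exact mul_dvd_mul_left _ hr2
          rw [zpow_sub, mul_inv_eq_one] at h5
          exact h5
        rw [h4, ← hv] at h3
        exact (mul_inv_eq_iff_eq_mul.mp h3).symm
      exact h1.mul_right h2
    -- the elementary abelian subgroup
    have hn : zpowers u ≤ normalizer ((zpowers v : Subgroup P) : Set P) := by
      refine le_trans ?_ (centralizer_le_normalizer _)
      rw [zpowers_le, mem_centralizer_iff]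
      rintro _ ⟨t, rfl⟩
      exact (huv.zpow_left t).eq
    have hcard := CfsgLib.SolvCoprime.card_sup_of_le_normalizer hn
    have hinf : zpowers v ⊓ zpowers u = ⊥ := by
      rw [eq_bot_iff]
      intro y hy
      rw [mem_inf] at hy
      obtain ⟨hy1, hy2⟩ := hy
      by_contra hy3
      rw [mem_bot] at hy3
      have hyM : y ∈ M := (zpowers_le.mpr hvM) hy1
      have h1 : orderOf y ∣ p := by rw [← huo]; exact orderOf_dvd_of_mem_zpowers hy2
      have h2 : orderOf y = p := by
        rcases (Nat.dvd_prime hp.out).mp h1 with h | h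
        · exact absurd (orderOf_eq_one_iff.mp h) hy3
        · exact h
      have h3 : zpowers y = zpowers u := by
        apply eq_of_le_of_card_ge
        · rw [zpowers_le]; exact hy2
        · rw [Nat.card_zpowers, Nat.card_zpowers, h2, huo]
      apply huM
      have h4 : u ∈ zpowers y := by rw [h3]; exact mem_zpowers u
      exact (zpowers_le.mpr hyM) h4
    rw [hinf, card_bot, mul_one, Nat.card_zpowers, Nat.card_zpowers, huo, hvo, ← sq] at hcard
    apply hno _ hcard
    intro y hy
    rw [CfsgLib.SolvCoprime.mem_sup_iff_of_le_normalizer hn] at hy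
    obtain ⟨_, ⟨s, rfl⟩, _, ⟨t, rfl⟩, rfl⟩ := hy
    have h1 : Commute (v ^ s) (u ^ t) := (huv.zpow_left s).zpow_right t
    show (v ^ s * u ^ t) ^ p = 1
    have key : ∀ (y : P) (n : ℤ), y ^ p = 1 → (y ^ n) ^ p = 1 := by
      intro y n hy
      rw [← zpow_natCast, ← zpow_mul, mul_comm, zpow_mul, zpow_natCast, hy, one_zpow]
    rw [h1.mul_pow, key v s hvp, key u t hup, mul_one]

end CfsgLib.H6
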