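import Cfsg.Agent.LibH6P3A

/-! Sourour's factorisation for `SL₃`. -/

set_option autoImplicit false

namespace CfsgLib.H6P3

open Matrix

section
variable {F : Type*} [Field F]

local notation "SL3" => Matrix.SpecialLinearGroup (Fin 3) F

theorem exists_vec (A : SL3) (hA : A ∉ Subgroup.center SL3) :
    ∃ v : Fin 3 → F, ∃ i j : Fin 3, v i * (A.1.mulVec v) j - v j * (A.1.mulVec v) i ≠ 0 := by
  classical
  by_contra hcon
  push Not at hcon
  apply hA
  have hmv : ∀ v : Fin 3 → F, ∀ i : Fin 3, (A.1.mulVec v) i = A.1 i 0 * v 0 + A.1 i 1 * v 1 + A.1 i 2 * v 2 := by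
    intro v i
    simp [Matrix.mulVec, dotProduct, Fin.sum_univ_three]
  have h10 := hcon ![1,0,0] 0 1
  have h20 := hcon ![1,0,0] 0 2
  have h01 := hcon ![0,1,0] 1 0
  have h21 := hcon ![0,1,0] 1 2
  have h02 := hcon ![0,0,1] 2 0
  have h12 := hcon ![0,0,1] 2 1
  have ha := hcon ![1,1,1] 0 1
  have hb := hcon ![1,1,1] 0 2
  simp only [hmv] at h10 h20 h01 h21 h02 h12 ha hb
  simp at h10 h20 h01 h21 h02 h12 ha hb
  rw [h10, h12, h01, h02] at ha
  rw [h20, h21, h01, h02] at hb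
  have ha' : A.1 1 1 = A.1 0 0 := by linear_combination ha
  have hb' : A.1 2 2 = A.1 0 0 := by linear_combination hb
  rw [Matrix.SpecialLinearGroup.mem_center_iff]
  have hsc : (scalar (Fin 3)) (A.1 0 0) = A.1 := by
    ext i j
    fin_cases i <;> fin_cases j <;> simp [*]
  refine ⟨A.1 0 0, ?_, hsc⟩
  have hd := A.2
  rw [← hsc] at hd
  simpa [Matrix.det_diagonal] using hd

theorem first_col (A : SL3) (hA : A ∉ Subgroup.center SL3) :
    ∃ P : SL3, (P⁻¹ * A * P).1 0 0 = 0 ∧ (P⁻¹ * A * P).1 1 0 = 1 ∧ (P⁻¹ * A * P).1 2 0 = 0 := by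
  classical
  obtain ⟨v, i, j, hij⟩ := exists_vec A hA
  set w := A.1.mulVec v with hw
  -- a third column
  obtain ⟨u, hu⟩ : ∃ u : Fin 3 → F, (Matrix.of (fun k l => ![v k, w k, u k] l) : Matrix (Fin 3) (Fin 3) F).det = 1 := by
    have hdet : ∀ u : Fin 3 → F, (Matrix.of (fun k l => ![v k, w k, u k] l) : Matrix (Fin 3) (Fin 3) F).det =
        (v 0 * w 1 - v 1 * w 0) * u 2 + (v 2 * w 0 - v 0 * w 2) * u 1 + (v 1 * w 2 - v 2 * w 1) * u 0 := by
      intro u
      rw [Matrix.det_fin_three]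
      simp
      ring
    by_cases h01 : v 0 * w 1 - v 1 * w 0 = 0
    · by_cases h02 : v 2 * w 0 - v 0 * w 2 = 0
      · have h12 : v 1 * w 2 - v 2 * w 1 ≠ 0 := by
          intro h12
          apply hij
          fin_cases i <;> fin_cases j <;> simp <;> first | (linear_combination h01) | (linear_combination -h01) | (linear_combination h02) | (linear_combination -h02) | (linear_combination h12) | (linear_combination -h12) | ring
        refine ⟨![(v 1 * w 2 - v 2 * w 1)⁻¹, 0, 0], ?_⟩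
        rw [hdet]
        simp [h12]
      · refine ⟨![0, (v 2 * w 0 - v 0 * w 2)⁻¹, 0], ?_⟩
        rw [hdet]
        simp [h02]
    · refine ⟨![0, 0, (v 0 * w 1 - v 1 * w 0)⁻¹], ?_⟩
      rw [hdet]
      simp [h01]
  let P : SL3 := ⟨Matrix.of (fun k l => ![v k, w k, u k] l), hu⟩
  refine ⟨P, ?_⟩
  have h1 : P.1.mulVec (Pi.single 0 1) = v := by
    rw [Matrix.mulVec_single_one]; rfl
  have h2 : P.1.mulVec (Pi.single 1 1) = w := by
    rw [Matrix.mulVec_single_one]; rfl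
  have h3 : (P⁻¹).1 * P.1 = 1 := by
    rw [← Matrix.SpecialLinearGroup.coe_mul, inv_mul_cancel, Matrix.SpecialLinearGroup.coe_one]
  have h4 : (P⁻¹ * A * P).1.mulVec (Pi.single 0 1) = Pi.single 1 1 := by
    rw [Matrix.SpecialLinearGroup.coe_mul, Matrix.SpecialLinearGroup.coe_mul, ← Matrix.mulVec_mulVec, h1, ← Matrix.mulVec_mulVec,
      ← hw, ← h2, Matrix.mulVec_mulVec, h3, Matrix.one_mulVec]
  rw [Matrix.mulVec_single_one] at h4
  refine ⟨?_, ?_, ?_⟩
  · have := congrFun h4 0; simpa using this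
  · have := congrFun h4 1; simpa using this
  · have := congrFun h4 2; simpa using this

theorem minors (A : SL3) (h0 : A.1 0 0 = 0) (h1 : A.1 1 0 = 1) (h2 : A.1 2 0 = 0) (d1 d2 : F) :
    ∃ P : SL3, (P⁻¹ * A * P).1 0 0 = d1 ∧
      (P⁻¹ * A * P).1 0 0 * (P⁻¹ * A * P).1 1 1 - (P⁻¹ * A * P).1 0 1 * (P⁻¹ * A * P).1 1 0 = d2 := by
  classical
  have hdet := A.2
  rw [Matrix.det_fin_three, h0, h1, h2] at hdet
  have hdet' : A.1 0 2 * A.1 2 1 - A.1 0 1 * A.1 2 2 = 1 := by linear_combination hdet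
  obtain ⟨r, hr, hy⟩ : ∃ r : F, r * r = r ∧ A.1 0 2 + r * A.1 0 1 ≠ 0 := by
    by_cases hb : A.1 0 2 = 0
    · refine ⟨1, one_mul _, ?_⟩
      intro h
      have ha : A.1 0 1 = 0 := by linear_combination h - hb
      rw [ha, hb] at hdet'
      simp at hdet'
    · exact ⟨0, mul_zero _, by simpa using hb⟩
  set y := A.1 0 2 + r * A.1 0 1 with hyd
  set c := (d2 + A.1 0 1) / y with hc
  have hcy : c * y = d2 + A.1 0 1 := by rw [hc]; field_simp
  let P : SL3 := ⟨!![1, -d1, 0; 0, 1 - c * r, r; 0, -c, 1], by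
    rw [Matrix.det_fin_three]; simp; ring⟩
  let Q : SL3 := ⟨!![1, d1, -(d1 * r); 0, 1, -r; 0, c, 1 - c * r], by
    rw [Matrix.det_fin_three]; simp; ring⟩
  have hPQ : P⁻¹ = Q := by
    apply inv_eq_of_mul_eq_one_right
    apply Subtype.ext
    rw [Matrix.SpecialLinearGroup.coe_mul, Matrix.SpecialLinearGroup.coe_one]
    ext i j
    fin_cases i <;> fin_cases j <;> simp [P, Q, Matrix.mul_apply, Fin.sum_univ_three] <;> ring
  refine ⟨P, ?_⟩
  rw [hPQ]
  have e : ∀ i j, (Q * A * P).1 i j = ∑ k, (∑ l, Q.1 i l * A.1 l k) * P.1 k j := by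
    intro i j
    rw [Matrix.SpecialLinearGroup.coe_mul, Matrix.SpecialLinearGroup.coe_mul, Matrix.mul_apply]
    exact Finset.sum_congr rfl fun k _ => by rw [Matrix.mul_apply]
  have e00 : (Q * A * P).1 0 0 = d1 := by
    rw [e]; simp [P, Q, Fin.sum_univ_three, h0, h1, h2]
  have e10 : (Q * A * P).1 1 0 = 1 := by
    rw [e]; simp [P, Q, Fin.sum_univ_three, h0, h1, h2]
  have e01 : (Q * A * P).1 0 1 = -d1 * d1 + (A.1 0 1 + d1 * A.1 1 1 - d1 * r * A.1 2 1) * (1 - c * r)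
      - c * (A.1 0 2 + d1 * A.1 1 2 - d1 * r * A.1 2 2) := by
    rw [e]; simp [P, Q, Fin.sum_univ_three, h0, h1, h2]; ring
  have e11 : (Q * A * P).1 1 1 = -d1 + (A.1 1 1 - r * A.1 2 1) * (1 - c * r)
      - c * (A.1 1 2 - r * A.1 2 2) := by
    rw [e]; simp [P, Q, Fin.sum_univ_three, h0, h1, h2]; ring
  refine ⟨e00, ?_⟩
  rw [e00, e10, e01, e11]
  rw [hyd] at hcy
  linear_combination hcy

theorem lu (A : SL3) (x y z : F) (hx : x ≠ 0) (hy : y ≠ 0) (hz : z ≠ 0) (hxy : x ≠ y) (hyz : y ≠ z) (hxz : x ≠ z)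
    (hprod : x * y * z = 1) (D : SL3) (hD : D.1 = !![x, 0, 0; 0, y, 0; 0, 0, z])
    (h1 : A.1 0 0 = x * x) (h2 : A.1 0 0 * A.1 1 1 - A.1 0 1 * A.1 1 0 = x * x * (y * y)) :
    ∃ S T : SL3, A = S * D * S⁻¹ * (T * D * T⁻¹) := by
  classical
  have hdet := A.2
  rw [Matrix.det_fin_three] at hdet
  set l1 := A.1 1 0 / x with hl1
  set l2 := A.1 2 0 / x with hl2
  set u1 := A.1 0 1 / x with hu1
  set u2 := A.1 0 2 / x with hu2
  set u3 := (A.1 1 2 - l1 * u2) / y with hu3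
  set l3 := (A.1 2 1 - l2 * u1) / y with hl3
  have k10 : A.1 1 0 = l1 * x := by rw [hl1]; field_simp
  have k20 : A.1 2 0 = l2 * x := by rw [hl2]; field_simp
  have k01 : A.1 0 1 = x * u1 := by rw [hu1]; field_simp
  have k02 : A.1 0 2 = x * u2 := by rw [hu2]; field_simp
  have k12 : A.1 1 2 = l1 * u2 + y * u3 := by rw [hu3]; field_simp; ring
  have k21 : A.1 2 1 = l2 * u1 + l3 * y := by rw [hl3]; field_simp; ring
  have k11 : A.1 1 1 = l1 * u1 + y * y := by
    have h3 : x * x * (A.1 1 1 - (l1 * u1 + y * y)) = 0 := by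
      rw [h1, k01, k10] at h2
      linear_combination h2
    rcases mul_eq_zero.mp h3 with h4 | h4
    · exact absurd h4 (mul_ne_zero hx hx)
    · linear_combination h4
  have k22 : A.1 2 2 = l2 * u2 + l3 * u3 + z * z := by
    have h3 : x * x * (y * y) * (A.1 2 2 - (l2 * u2 + l3 * u3 + z * z)) = 0 := by
      rw [h1, k01, k02, k10, k11, k12, k20, k21] at hdet
      linear_combination hdet - (x * y * z + 1) * hprod
    rcases mul_eq_zero.mp h3 with h4 | h4
    · exact absurd h4 (mul_ne_zero (mul_ne_zero hx hx) (mul_ne_zero hy hy))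
    · linear_combination h4
  have dxy : x - y ≠ 0 := sub_ne_zero.mpr hxy
  have dyz : y - z ≠ 0 := sub_ne_zero.mpr hyz
  have dxz : x - z ≠ 0 := sub_ne_zero.mpr hxz
  -- the lower part
  set s1 := l1 / (x - y) with hs1
  set s3 := l3 / (y - z) with hs3
  set s2 := (l2 + l3 * s1) / (x - z) with hs2
  have ks1 : l1 = (x - y) * s1 := by rw [hs1]; field_simp
  have ks3 : l3 = (y - z) * s3 := by rw [hs3]; field_simp
  have ks2 : l2 + l3 * s1 = (x - z) * s2 := by rw [hs2]; field_simp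
  set t1 := u1 / (y - x) with ht1
  set t3 := u3 / (z - y) with ht3
  set t2 := (u2 + u1 * t3) / (z - x) with ht2
  have dyx : y - x ≠ 0 := sub_ne_zero.mpr hxy.symm
  have dzy : z - y ≠ 0 := sub_ne_zero.mpr hyz.symm
  have dzx : z - x ≠ 0 := sub_ne_zero.mpr hxz.symm
  have kt1 : u1 = (y - x) * t1 := by rw [ht1]; field_simp
  have kt3 : u3 = (z - y) * t3 := by rw [ht3]; field_simp
  have kt2 : u2 + u1 * t3 = (z - x) * t2 := by rw [ht2]; field_simp
  let L : SL3 := ⟨!![x, 0, 0; l1, y, 0; l2, l3, z], by rw [Matrix.det_fin_three]; simp [hprod]⟩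
  let U : SL3 := ⟨!![x, u1, u2; 0, y, u3; 0, 0, z], by rw [Matrix.det_fin_three]; simp [hprod]⟩
  let S : SL3 := ⟨!![1, 0, 0; s1, 1, 0; s2, s3, 1], by rw [Matrix.det_fin_three]; simp⟩
  let T : SL3 := ⟨!![1, t1, t2; 0, 1, t3; 0, 0, 1], by rw [Matrix.det_fin_three]; simp⟩
  have hA : A = L * U := by
    apply Subtype.ext
    rw [Matrix.SpecialLinearGroup.coe_mul]
    ext i j
    rw [Matrix.mul_apply, Fin.sum_univ_three]
    fin_cases i <;> fin_cases j <;> simp [L, U, h1, k01, k02, k10, k11, k12, k20, k21, k22] <;> ring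
  have hL : L * S = S * D := by
    apply Subtype.ext
    rw [Matrix.SpecialLinearGroup.coe_mul, Matrix.SpecialLinearGroup.coe_mul, hD]
    ext i j
    rw [Matrix.mul_apply, Matrix.mul_apply, Fin.sum_univ_three, Fin.sum_univ_three]
    fin_cases i <;> fin_cases j <;> simp [L, S]
    · linear_combination ks1
    · linear_combination ks2
    · linear_combination ks3
  have hU : U * T = T * D := by
    apply Subtype.ext
    rw [Matrix.SpecialLinearGroup.coe_mul, Matrix.SpecialLinearGroup.coe_mul, hD]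
    ext i j
    rw [Matrix.mul_apply, Matrix.mul_apply, Fin.sum_univ_three, Fin.sum_univ_three]
    fin_cases i <;> fin_cases j <;> simp [U, T]
    · linear_combination kt1
    · linear_combination kt2
    · linear_combination kt3
  refine ⟨S, T, ?_⟩
  rw [hA, ← hL, ← hU]
  group

theorem factor (D : SL3) (x y z : F) (hx : x ≠ 0) (hy : y ≠ 0) (hz : z ≠ 0) (hxy : x ≠ y) (hyz : y ≠ z) (hxz : x ≠ z)
    (hprod : x * y * z = 1) (hD : D.1 = !![x, 0, 0; 0, y, 0; 0, 0, z])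
    (A : SL3) (hA : A ∉ Subgroup.center SL3) :
    ∃ S T : SL3, A = S * D * S⁻¹ * (T * D * T⁻¹) := by
  obtain ⟨P, h0, h1, h2⟩ := first_col A hA
  obtain ⟨Q, h3, h4⟩ := minors (P⁻¹ * A * P) h0 h1 h2 (x * x) (x * x * (y * y))
  obtain ⟨S, T, h5⟩ := lu _ x y z hx hy hz hxy hyz hxz hprod D hD h3 h4
  refine ⟨P * Q * S, P * Q * T, ?_⟩
  have h6 : A = (P * Q) * (Q⁻¹ * (P⁻¹ * A * P) * Q) * (P * Q)⁻¹ := by group
  rw [h6, h5]
  group

end

end CfsgLib.H6P3
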