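import Cfsg.Agent.LibH6P3B

/-! Products of two conjugates of a semisimple element of `PSL(3,q)`, `q > 2`. -/

set_option autoImplicit false

namespace CfsgLib.H6P3

open Matrix

theorem det3_eq (A : Matrix (Fin 3) (Fin 3) (ZMod 3)) : A.det = det3 A := by
  rw [Matrix.det_fin_three]; rfl

theorem X3_det : X3.det = 1 := by
  rw [det3_eq]; decide

/-- the element of order four -/
def X3s : Matrix.SpecialLinearGroup (Fin 3) (ZMod 3) := ⟨X3, X3_det⟩

theorem X3s_pow : X3s ^ 4 = 1 := by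
  apply Subtype.ext
  show X3 ^ 4 = 1
  decide

theorem factor3 (A : Matrix.SpecialLinearGroup (Fin 3) (ZMod 3))
    (hA : A ∉ Subgroup.center (Matrix.SpecialLinearGroup (Fin 3) (ZMod 3))) :
    ∃ S T : Matrix.SpecialLinearGroup (Fin 3) (ZMod 3), A = S * X3s * S⁻¹ * (T * X3s * T⁻¹) := by
  haveI : Fact (Nat.Prime 3) := ⟨Nat.prime_three⟩
  obtain ⟨P, h0, h1, h2⟩ := first_col A hA
  set A' := P⁻¹ * A * P with hA'
  have hdet := A'.2
  rw [Matrix.det_fin_three, h0, h1, h2] at hdet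
  have hdet' : A'.1 0 2 * A'.1 2 1 - A'.1 0 1 * A'.1 2 2 = 1 := by linear_combination hdet
  have hA0 : A'.1 = A0 (A'.1 0 1) (A'.1 0 2) (A'.1 1 1) (A'.1 1 2) (A'.1 2 1) (A'.1 2 2) := by
    ext i j
    fin_cases i <;> fin_cases j <;> simp [A0, h0, h1, h2]
  obtain ⟨k1, k2, k3, k4, k5⟩ := tab_ok _ _ _ _ _ _ hdet'
  rw [← hA0] at k1
  set t := tabL.getD (idx (A'.1 0 1) (A'.1 0 2) (A'.1 1 1) (A'.1 1 2) (A'.1 2 1) (A'.1 2 2)) (0,0,0,0)
  let u : Matrix.SpecialLinearGroup (Fin 3) (ZMod 3) := ⟨mk3 t.2.2.1, by rw [det3_eq]; exact k4⟩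
  let v : Matrix.SpecialLinearGroup (Fin 3) (ZMod 3) := ⟨mk3 t.2.2.2, by rw [det3_eq]; exact k5⟩
  have hdX : X3.det = 1 := X3_det
  have hB : (mk3 t.1).det = 1 := by
    have h := congrArg Matrix.det k2
    rw [Matrix.det_mul, Matrix.det_mul, u.2, hdX, mul_one, mul_one] at h
    exact h
  have hC : (mk3 t.2.1).det = 1 := by
    have h := congrArg Matrix.det k3
    rw [Matrix.det_mul, Matrix.det_mul, v.2, hdX, mul_one, mul_one] at h
    exact h
  let B : Matrix.SpecialLinearGroup (Fin 3) (ZMod 3) := ⟨mk3 t.1, hB⟩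
  let C : Matrix.SpecialLinearGroup (Fin 3) (ZMod 3) := ⟨mk3 t.2.1, hC⟩
  have e1 : A' = B * C := Subtype.ext k1
  have e2 : B * u = u * X3s := Subtype.ext k2
  have e3 : C * v = v * X3s := Subtype.ext k3
  refine ⟨P * u, P * v, ?_⟩
  have h6 : A = P * A' * P⁻¹ := by rw [hA']; group
  have h7 : P * u * X3s * (P * u)⁻¹ * (P * v * X3s * (P * v)⁻¹) = P * ((u * X3s) * u⁻¹ * ((v * X3s) * v⁻¹)) * P⁻¹ := by
    group
  rw [h7, ← e2, ← e3, h6, e1]
  group

theorem psl3 {F : Type*} [Field F] [Fintype F] (p : ℕ) [Fact p.Prime] [CharP F p] (h3 : 3 ≤ Fintype.card F) :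
    ∃ x : Matrix.ProjectiveSpecialLinearGroup (Fin 3) F, ¬ p ∣ orderOf x ∧
      ∀ g : Matrix.ProjectiveSpecialLinearGroup (Fin 3) F, g ≠ 1 →
        ∃ u v : Matrix.ProjectiveSpecialLinearGroup (Fin 3) F, g = (u * x * u⁻¹) * (v * x * v⁻¹) := by
  classical
  have hp : p.Prime := Fact.out
  -- it suffices to work in `SL`
  suffices h : ∃ (D : Matrix.SpecialLinearGroup (Fin 3) F) (N : ℕ), D ^ N = 1 ∧ ¬ p ∣ N ∧
      ∀ A : Matrix.SpecialLinearGroup (Fin 3) F, A ∉ Subgroup.center (Matrix.SpecialLinearGroup (Fin 3) F) →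
        ∃ S T : Matrix.SpecialLinearGroup (Fin 3) F, A = S * D * S⁻¹ * (T * D * T⁻¹) by
    obtain ⟨D, N, hDN, hpN, hD⟩ := h
    refine ⟨QuotientGroup.mk D, ?_, ?_⟩
    · intro hdvd
      apply hpN
      refine hdvd.trans (orderOf_dvd_of_pow_eq_one ?_)
      rw [← QuotientGroup.mk_pow, hDN]; rfl
    · intro g hg
      obtain ⟨A, rfl⟩ := QuotientGroup.mk_surjective g
      have hA : A ∉ Subgroup.center (Matrix.SpecialLinearGroup (Fin 3) F) := by
        intro h; exact hg ((QuotientGroup.eq_one_iff A).mpr h)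
      obtain ⟨S, T, hST⟩ := hD A hA
      refine ⟨QuotientGroup.mk S, QuotientGroup.mk T, ?_⟩
      rw [hST]
      rfl
  have hcardp : ∃ k, 0 < k ∧ Fintype.card F = p ^ k := by
    obtain ⟨k, hk⟩ := FiniteField.card F p
    exact ⟨k, k.pos, hk.2⟩
  obtain ⟨k, hk0, hk⟩ := hcardp
  by_cases h4 : Fintype.card F = 3
  · have hp3 : p = 3 := by
      have h1 : p ∣ 3 := by rw [← h4, hk]; exact dvd_pow_self p hk0.ne'
      exact (Nat.prime_dvd_prime_iff_eq hp Nat.prime_three).mp h1
    let e : ZMod 3 ≃+* F := ZMod.ringEquivOfPrime F Nat.prime_three h4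
    let φ : Matrix.SpecialLinearGroup (Fin 3) (ZMod 3) →* Matrix.SpecialLinearGroup (Fin 3) F :=
      Matrix.SpecialLinearGroup.map (e : ZMod 3 →+* F)
    let ψ : Matrix.SpecialLinearGroup (Fin 3) F →* Matrix.SpecialLinearGroup (Fin 3) (ZMod 3) :=
      Matrix.SpecialLinearGroup.map (e.symm : F →+* ZMod 3)
    have hφψ : ∀ A, φ (ψ A) = A := by
      intro A
      apply Subtype.ext
      ext i j
      exact e.apply_symm_apply _
    have hψφ : ∀ A, ψ (φ A) = A := by
      intro A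
      apply Subtype.ext
      ext i j
      exact e.symm_apply_apply _
    refine ⟨φ X3s, 4, by rw [← map_pow, X3s_pow, map_one], by rw [hp3]; norm_num, ?_⟩
    intro A hA
    have hA' : ψ A ∉ Subgroup.center (Matrix.SpecialLinearGroup (Fin 3) (ZMod 3)) := by
      intro h
      apply hA
      rw [Subgroup.mem_center_iff] at h ⊢
      intro B
      have h1 := congrArg φ (h (ψ B))
      rwa [map_mul, map_mul, hφψ, hφψ] at h1
    obtain ⟨S, T, hST⟩ := factor3 (ψ A) hA'
    refine ⟨φ S, φ T, ?_⟩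
    have h1 := congrArg φ hST
    rw [hφψ] at h1
    rw [h1]
    simp only [map_mul, map_inv]
  · -- choose `b ≠ 0, 1, -1`
    obtain ⟨b, hb⟩ : ∃ b : F, b ∉ ({0, 1, -1} : Finset F) := by
      by_contra hcon
      push Not at hcon
      have h1 : (Finset.univ : Finset F) ⊆ ({0, 1, -1} : Finset F) := fun x _ => hcon x
      have h2 := Finset.card_le_card h1
      have h3' : (({0, 1, -1} : Finset F)).card ≤ 3 := Finset.card_le_three
      rw [Finset.card_univ] at h2
      omega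
    simp only [Finset.mem_insert, Finset.mem_singleton, not_or] at hb
    obtain ⟨hb0, hb1, hbm⟩ := hb
    have hbinv : b ≠ b⁻¹ := by
      intro h
      have h5 : b * b = 1 := by
        nth_rewrite 2 [h]; exact mul_inv_cancel₀ hb0
      have h6 : (b - 1) * (b + 1) = 0 := by linear_combination h5
      rcases mul_eq_zero.mp h6 with h7 | h7
      · exact hb1 (sub_eq_zero.mp h7)
      · exact hbm (eq_neg_of_add_eq_zero_left h7)
    have hprod : (1 : F) * b * b⁻¹ = 1 := by rw [one_mul, mul_inv_cancel₀ hb0]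
    let D : Matrix.SpecialLinearGroup (Fin 3) F := ⟨!![1, 0, 0; 0, b, 0; 0, 0, b⁻¹], by
      rw [Matrix.det_fin_three]; simp [hb0]⟩
    refine ⟨D, Fintype.card F - 1, ?_, ?_, ?_⟩
    · have hD : ∀ n : ℕ, (D ^ n).1 = !![1, 0, 0; 0, b ^ n, 0; 0, 0, b⁻¹ ^ n] := by
        intro n
        induction n with
        | zero =>
          rw [pow_zero, Matrix.SpecialLinearGroup.coe_one]
          ext i j
          fin_cases i <;> fin_cases j <;> simp
        | succ n ih =>
          rw [pow_succ, Matrix.SpecialLinearGroup.coe_mul, ih]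
          ext i j
          rw [Matrix.mul_apply, Fin.sum_univ_three]
          fin_cases i <;> fin_cases j <;> simp [D, pow_succ]
      apply Subtype.ext
      rw [hD, Matrix.SpecialLinearGroup.coe_one, FiniteField.pow_card_sub_one_eq_one b hb0,
        FiniteField.pow_card_sub_one_eq_one b⁻¹ (inv_ne_zero hb0)]
      ext i j
      fin_cases i <;> fin_cases j <;> simp
    · intro hdvd
      have h5 : p ∣ Fintype.card F := by rw [hk]; exact dvd_pow_self p hk0.ne'
      have h6 : Fintype.card F = (Fintype.card F - 1) + 1 := by omega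
      rw [h6] at h5
      have h7 : p ∣ 1 := (Nat.dvd_add_right hdvd).mp h5
      exact hp.one_lt.ne' (Nat.dvd_one.mp h7)
    · intro A hA
      exact factor D 1 b b⁻¹ one_ne_zero hb0 (inv_ne_zero hb0) (Ne.symm hb1) hbinv
        (fun h => hb1 (inv_eq_one.mp h.symm)) hprod rfl A hA

end CfsgLib.H6P3
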