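import Cfsg.Agent.EqBase
import Cfsg.Agent.LibPSolv19
import Cfsg.Agent.LibSolvHall

/-! Hall `p'`-subgroups (p-complements) of finite `p`-solvable groups: existence, conjugacy, domination. -/

set_option autoImplicit false

namespace CfsgLib.H6

open Subgroup Cfsg CfsgLib.SolvBasic CfsgLib.SolvHall CfsgLib.PSolv19
open scoped Pointwise

universe u

/-- `p`-complement. -/
def IsPCompl (p : ℕ) {G : Type*} [Group G] (H : Subgroup G) : Prop :=
  (Nat.card H).Coprime p ∧ ∃ n : ℕ, H.index = p ^ n

theorem dvd_pow_prime {p : ℕ} (hp : p.Prime) {a n : ℕ} (h : a ∣ p ^ n) : ∃ m, a = p ^ m := by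
  obtain ⟨m, _, hm⟩ := (Nat.dvd_prime_pow hp).mp h
  exact ⟨m, hm⟩

theorem IsPCompl.map {p : ℕ} (hp : p.Prime) {G : Type*} [Group G] [Finite G] {H : Subgroup G} (h : IsPCompl p H)
    (N : Subgroup G) [N.Normal] : IsPCompl p (H.map (QuotientGroup.mk' N)) := by
  obtain ⟨h1, n, hn⟩ := h
  refine ⟨Nat.Coprime.coprime_dvd_left (Subgroup.card_map_dvd _ _) h1, ?_⟩
  apply dvd_pow_prime hp (n := n)
  rw [← hn]
  exact Subgroup.index_map_dvd _ (QuotientGroup.mk'_surjective N)

theorem IsPCompl.conj {p : ℕ} {G : Type*} [Group G] {H : Subgroup G} (h : IsPCompl p H) (g : G) :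
    IsPCompl p (MulAut.conj g • H) := by
  obtain ⟨h1, n, hn⟩ := h
  exact ⟨by rw [card_conj_smul]; exact h1, n, by rw [index_conj_smul]; exact hn⟩

theorem p_hall (p : ℕ) [hp : Fact p.Prime] (n : ℕ) : ∀ (G : Type u) [Group G] [Finite G], Nat.card G = n →
    IsPSolvable p G → (∃ H : Subgroup G, IsPCompl p H) ∧
      ∀ H U : Subgroup G, IsPCompl p H → (Nat.card U).Coprime p → ∃ g : G, MulAut.conj g • U ≤ H := by
  induction n using Nat.strong_induction_on with
  | _ n ih =>
  intro G _ _ hn hG
  classical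
  have hpp : p.Prime := hp.out
  by_cases hG1 : (⊤ : Subgroup G) = ⊥
  · have hall : ∀ H : Subgroup G, H = ⊥ := fun H => by rw [eq_bot_iff, ← hG1]; exact le_top
    refine ⟨⟨⊤, ?_, 0, by simp⟩, fun H U _ _ => ⟨1, ?_⟩⟩
    · rw [hG1, Subgroup.card_bot]; exact Nat.coprime_one_left p
    · rw [hall U]
      intro x hx
      rw [mem_conj_smul, Subgroup.mem_bot] at hx
      have : x = 1 := by
        calc x = 1 * (1⁻¹ * x * 1) * 1⁻¹ := by group
          _ = 1 := by rw [hx]; group
      rw [this]; exact one_mem _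
  obtain ⟨N, hNn, hN1, _, hmin⟩ := exists_minimal_normal (⊤ : Subgroup G) hG1
  have hlt : Nat.card (G ⧸ N) < n := hn ▸ card_quotient_lt N hN1
  obtain ⟨⟨Hb, hHb⟩, hD⟩ := ih _ hlt (G ⧸ N) rfl (psolv_quotient hpp hG N)
  rcases psolv_minNormal hG hNn hN1 hmin with hNp | hNp
  · -- `N` is a `p`-group
    obtain ⟨c, hc⟩ := IsPGroup.iff_card.mp hNp
    have hNsolv : Group.IsSolvable N := by
      haveI : Group.IsNilpotent N := hNp.isNilpotent
      infer_instance
    refine ⟨?_, ?_⟩
    · let K : Subgroup G := Hb.comap (QuotientGroup.mk' N)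
      have hNK : N ≤ K := by
        intro x hx
        show QuotientGroup.mk' N x ∈ Hb
        have h0 : QuotientGroup.mk' N x = 1 := (QuotientGroup.eq_one_iff x).mpr hx
        rw [h0]
        exact one_mem _
      have hKcard : Nat.card K = Nat.card Hb * Nat.card N := card_comap_mk' N Hb
      have hrel : N.relIndex K = Nat.card Hb := relIndex_eq_of_card_mul hNK (by rw [hKcard, mul_comm])
      obtain ⟨S, hS⟩ := Subgroup.exists_right_complement'_of_coprime (N := N.subgroupOf K) (by
        rw [card_subgroupOf hNK]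
        show (Nat.card N).Coprime (N.relIndex K)
        rw [hrel, hc]
        exact Nat.Coprime.pow_left _ hHb.1.symm)
      have hScard : Nat.card (S.map K.subtype) = Nat.card Hb := by
        rw [Subgroup.card_map_of_injective K.subtype_injective, ← hS.symm.index_eq_card]
        exact hrel
      refine ⟨S.map K.subtype, ?_, ?_⟩
      · rw [hScard]; exact hHb.1
      · obtain ⟨m, hm⟩ := hHb.2
        refine ⟨m + c, ?_⟩
        have h1 := Subgroup.card_mul_index (S.map K.subtype)
        have h2 := Subgroup.card_mul_index Hb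
        have h3 := card_quotient_mul_card N
        rw [hScard] at h1
        rw [← h3, ← h2, hm, hc] at h1
        have hpos : 0 < Nat.card Hb := Nat.card_pos
        apply Nat.eq_of_mul_eq_mul_left hpos
        rw [h1, pow_add]; ring
    · intro H U hH hU
      obtain ⟨g, hg⟩ := hD _ (U.map (QuotientGroup.mk' N)) (hH.map hpp N)
        (Nat.Coprime.coprime_dvd_left (Subgroup.card_map_dvd _ _) hU)
      obtain ⟨g, rfl⟩ := QuotientGroup.mk'_surjective N g
      rw [conj_smul_map_mk'] at hg
      have hle := le_sup_of_map_mk'_le N hg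
      set U' := MulAut.conj g • U with hU'
      have hU'card : (Nat.card U').Coprime p := by rw [hU', card_conj_smul]; exact hU
      have hNH : N ⊓ H = ⊥ := inf_bot_of_coprime (by rw [hc]; exact Nat.Coprime.pow_left _ hH.1.symm)
      have hNU : N ⊓ U' = ⊥ := inf_bot_of_coprime (by rw [hc]; exact Nat.Coprime.pow_left _ hU'card.symm)
      have hLcard : Nat.card ↥(N ⊔ U') = Nat.card N * Nat.card U' := by
        have := card_sup_of_normal N U'
        rw [hNU, Subgroup.card_bot, mul_one] at this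
        exact this
      have hLle : N ⊔ U' ≤ N ⊔ H := sup_le le_sup_left (hle.trans (by rw [sup_comm]))
      have h1 := card_inf_mul_card_of_le_sup N H (N ⊔ U') le_sup_left hNH hLle
      have hNpos : 0 < Nat.card N := Nat.card_pos
      have h2 : Nat.card ↥(H ⊓ (N ⊔ U')) = Nat.card U' := by
        rw [hLcard, mul_comm (Nat.card N)] at h1
        exact Nat.eq_of_mul_eq_mul_right hNpos h1
      have hrel : N.relIndex (N ⊔ U') = Nat.card U' := relIndex_eq_of_card_mul le_sup_left hLcard
      obtain ⟨l, _, hl⟩ := sz_conj_in_subgroup N (N ⊔ U') le_sup_left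
        (le_top.trans (Subgroup.normalizer_eq_top_iff.mpr hNn).ge) (by
          rw [hrel, hc]; exact Nat.Coprime.pow_left _ hU'card.symm) hNsolv U' (H ⊓ (N ⊔ U')) le_sup_right inf_le_right
        hrel.symm (h2.trans hrel.symm)
      refine ⟨l * g, ?_⟩
      rw [conj_smul_mul, hl]
      exact inf_le_left
  · -- `N` is a `p'`-group
    have hNc : (Nat.card N).Coprime p := ((Nat.Prime.coprime_iff_not_dvd hpp).mpr hNp).symm
    refine ⟨⟨Hb.comap (QuotientGroup.mk' N), ?_, ?_⟩, ?_⟩
    · rw [card_comap_mk']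
      exact Nat.Coprime.mul_left hHb.1 hNc
    · rw [Subgroup.index_comap_of_surjective _ (QuotientGroup.mk'_surjective N)]
      exact hHb.2
    · intro H U hH hU
      have hNH : N ≤ H := by
        have h1 : H ⊔ N = H := by
          have h2 : H.relIndex (H ⊔ N) = 1 := by
            obtain ⟨m, hm⟩ := hH.2
            have h3 : H.relIndex (H ⊔ N) ∣ p ^ m := by
              rw [← hm]; exact Subgroup.relIndex_dvd_index_of_le le_sup_left
            have h4 : (Nat.card ↥(H ⊔ N)).Coprime p := by
              have h5 : Nat.card ↥(H ⊔ N) ∣ Nat.card N * Nat.card H := by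
                rw [← card_sup_of_normal N H, sup_comm]
                exact Dvd.intro _ rfl
              exact Nat.Coprime.coprime_dvd_left h5 (Nat.Coprime.mul_left hNc hH.1)
            have h6 : H.relIndex (H ⊔ N) ∣ Nat.card ↥(H ⊔ N) := Subgroup.relIndex_dvd_card _ _
            have h7 : (Nat.card ↥(H ⊔ N)).Coprime (p ^ m) := Nat.Coprime.pow_right _ h4
            exact Nat.dvd_one.mp (h7 ▸ Nat.dvd_gcd h6 h3)
          exact le_antisymm (Subgroup.relIndex_eq_one.mp h2) le_sup_left
        rw [← h1]; exact le_sup_right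
      obtain ⟨g, hg⟩ := hD _ (U.map (QuotientGroup.mk' N)) (hH.map hpp N)
        (Nat.Coprime.coprime_dvd_left (Subgroup.card_map_dvd _ _) hU)
      obtain ⟨g, rfl⟩ := QuotientGroup.mk'_surjective N g
      rw [conj_smul_map_mk'] at hg
      refine ⟨g, (le_sup_of_map_mk'_le N hg).trans (sup_le le_rfl hNH)⟩

/-- every `p'`-subgroup of a `p`-solvable group lies in a `p`-complement -/
theorem exists_pCompl_ge (p : ℕ) [Fact p.Prime] {G : Type u} [Group G] [Finite G] (hG : IsPSolvable p G)
    (U : Subgroup G) (hU : (Nat.card U).Coprime p) : ∃ H : Subgroup G, IsPCompl p H ∧ U ≤ H := by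
  obtain ⟨⟨H, hH⟩, hD⟩ := p_hall p _ G rfl hG
  obtain ⟨g, hg⟩ := hD H U hH hU
  refine ⟨MulAut.conj g⁻¹ • H, hH.conj _, ?_⟩
  intro x hx
  rw [mem_conj_smul]
  apply hg
  rw [mem_conj_smul]
  have : g⁻¹ * (g⁻¹⁻¹ * x * g⁻¹) * g = x := by group
  rw [this]; exact hx

theorem pCompl_conj (p : ℕ) [Fact p.Prime] {G : Type u} [Group G] [Finite G] (hG : IsPSolvable p G)
    {H K : Subgroup G} (hH : IsPCompl p H) (hK : IsPCompl p K) : ∃ g : G, MulAut.conj g • H = K := by
  obtain ⟨_, hD⟩ := p_hall p _ G rfl hG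
  obtain ⟨g, hg⟩ := hD K H hK hH.1
  refine ⟨g, Subgroup.eq_of_le_of_card_ge hg ?_⟩
  have hHg := hH.conj g
  -- cards agree
  have hdvd : Nat.card K ∣ Nat.card (MulAut.conj g • H : Subgroup G) := by
    have h1 : Nat.card K ∣ Nat.card (MulAut.conj g • H : Subgroup G) * (MulAut.conj g • H).index := by
      rw [Subgroup.card_mul_index]; exact Subgroup.card_subgroup_dvd_card K
    obtain ⟨m, hm⟩ := hHg.2
    rw [hm] at h1
    exact (Nat.Coprime.pow_right m hK.1).dvd_of_dvd_mul_right h1
  exact Nat.le_of_dvd Nat.card_pos hdvd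

end CfsgLib.H6
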