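import Mathlib
import Cfsg.Agent.LibH6PiCount

/-! The number of classes of π-elements is at most the π-part of the order. -/

set_option autoImplicit false

namespace CfsgLib.H6

open Subgroup

universe u

theorem piPart_conj {G : Type*} [Group G] [Finite G] (π : Set ℕ) (x c : G) :
    piPart π (c * x * c⁻¹) = c * piPart π x * c⁻¹ ∧ piRest π (c * x * c⁻¹) = c * piRest π x * c⁻¹ := by
  have h1 : Commute (piPart π x) (piRest π x) := (Commute.refl x).pow_pow _ _
  have h2 : Commute (c * piPart π x * c⁻¹) (c * piRest π x * c⁻¹) := by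
    change _ = _
    have e1 : c * piPart π x * c⁻¹ * (c * piRest π x * c⁻¹) = c * (piPart π x * piRest π x) * c⁻¹ := by group
    have e2 : c * piRest π x * c⁻¹ * (c * piPart π x * c⁻¹) = c * (piRest π x * piPart π x) * c⁻¹ := by group
    rw [e1, e2, h1.eq]
  have h3 := piPart_unique π ((piPart_isPiEl π x).conj c) ((piRest_isPiEl π x).conj c) h2
  have e1 : c * piPart π x * c⁻¹ * (c * piRest π x * c⁻¹) = c * x * c⁻¹ := by
    conv_rhs => rw [← piPart_mul_piRest π x]
    group
  rw [e1] at h3
  exact h3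

theorem card_piClass_prime_le {G : Type u} [Group G] [Finite G] (p : ℕ) (hp : p.Prime) :
    Nat.card (PiClass {p} G) ≤ p ^ (Nat.card G).factorization p := by
  classical
  have := Fact.mk hp
  let P : Sylow p G := default
  have hPcard : Nat.card (P : Subgroup G) = p ^ (Nat.card G).factorization p := Sylow.card_eq_multiplicity P
  rw [← hPcard]
  have hsub : ∀ C : PiClass {p} G, ∃ y : P, ConjClasses.mk (y : G) = C.1 := by
    rintro ⟨C, hC⟩
    obtain ⟨x, rfl⟩ := ConjClasses.mk_surjective C
    have hx := (mk_prop_iff _ x).mp hC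
    have hpow : ∃ k, orderOf x = p ^ k := by
      refine ⟨(orderOf x).primeFactorsList.length, ?_⟩
      apply Nat.eq_prime_pow_of_unique_prime_dvd (orderOf_pos x).ne'
      intro q hq hd
      exact hx q hq hd
    obtain ⟨k, hk⟩ := hpow
    obtain ⟨Q, hQ⟩ := (IsPGroup.of_card (p := p) (n := k) (by rw [Nat.card_zpowers]; exact hk) :
      IsPGroup p (Subgroup.zpowers x)).exists_le_sylow
    have hxQ : x ∈ (Q : Subgroup G) := hQ (Subgroup.mem_zpowers x)
    obtain ⟨g, hg⟩ := MulAction.exists_smul_eq G P Q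
    rw [← hg, Sylow.coe_subgroup_smul] at hxQ
    obtain ⟨z, hz, hzx⟩ := hxQ
    have hzx' : g * z * g⁻¹ = x := hzx
    refine ⟨⟨z, hz⟩, ?_⟩
    rw [ConjClasses.mk_eq_mk_iff_isConj, isConj_iff]
    exact ⟨g, hzx'⟩
  choose φ hφ using hsub
  apply Nat.card_le_card_of_injective φ
  intro a b hab
  apply Subtype.ext
  rw [← hφ a, ← hφ b, hab]

theorem card_piClass_finset_le (S : Finset ℕ) (hS : ∀ p ∈ S, p.Prime) :
    ∀ (G : Type u) [Group G] [Finite G],
    Nat.card (PiClass (S : Set ℕ) G) ≤ ∏ p ∈ S, p ^ (Nat.card G).factorization p := by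
  classical
  induction S using Finset.induction_on with
  | empty =>
    intro G _ _
    rw [Finset.prod_empty]
    have : Subsingleton (PiClass ((∅ : Finset ℕ) : Set ℕ) G) := by
      constructor
      rintro ⟨C, hC⟩ ⟨D, hD⟩
      obtain ⟨x, rfl⟩ := ConjClasses.mk_surjective C
      obtain ⟨y, rfl⟩ := ConjClasses.mk_surjective D
      have h1 : ∀ z : G, IsPiEl ((∅ : Finset ℕ) : Set ℕ) z → z = 1 := by
        intro z hz
        by_contra hne
        obtain ⟨q, hq, hd⟩ := Nat.exists_prime_and_dvd (n := orderOf z) (by rwa [Ne, orderOf_eq_one_iff])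
        have := hz q hq hd
        simp at this
      have hx := h1 x ((mk_prop_iff _ x).mp hC)
      have hy := h1 y ((mk_prop_iff _ y).mp hD)
      apply Subtype.ext
      change ConjClasses.mk x = ConjClasses.mk y
      rw [hx, hy]
    exact Finite.card_le_one_iff_subsingleton.mpr this
  | insert p S hpS ih =>
    intro G _ _
    have hp : p.Prime := hS p (Finset.mem_insert_self p S)
    have hS' : ∀ q ∈ S, q.Prime := fun q hq => hS q (Finset.mem_insert_of_mem hq)
    rw [Finset.prod_insert hpS]
    have hprop : ∀ C : PiClass ((insert p S : Finset ℕ) : Set ℕ) G, ∃ x : G, ConjClasses.mk x = C.1 ∧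
        IsPiEl ((insert p S : Finset ℕ) : Set ℕ) x := by
      rintro ⟨C, hC⟩
      obtain ⟨x, rfl⟩ := ConjClasses.mk_surjective C
      exact ⟨x, rfl, (mk_prop_iff _ x).mp hC⟩
    let f : PiClass ((insert p S : Finset ℕ) : Set ℕ) G → PiClass {p} G := fun C =>
      ⟨ConjClasses.mk (piPart {p} (hprop C).choose), (mk_prop_iff _ _).mpr (piPart_isPiEl _ _)⟩
    refine (card_le_mul_of_fiber f (∏ q ∈ S, q ^ (Nat.card G).factorization q) ?_).trans
      (Nat.mul_le_mul_right _ (card_piClass_prime_le p hp))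
    rintro ⟨D, hD⟩
    obtain ⟨d, rfl⟩ := ConjClasses.mk_surjective D
    have hbound : Nat.card (PiClass (S : Set ℕ) (centralizer ({d} : Set G))) ≤
        ∏ q ∈ S, q ^ (Nat.card G).factorization q := by
      refine (ih hS' (centralizer ({d} : Set G))).trans ?_
      apply Finset.prod_le_prod (fun _ _ => Nat.zero_le _)
      intro q hq
      apply Nat.pow_le_pow_right (hS' q hq).pos
      exact (Nat.factorization_le_iff_dvd Nat.card_pos.ne' Nat.card_pos.ne').mpr
        (Subgroup.card_subgroup_dvd_card _) q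
    refine le_trans ?_ hbound
    have hsub : ∀ a : {a : PiClass ((insert p S : Finset ℕ) : Set ℕ) G // f a = ⟨ConjClasses.mk d, hD⟩},
        ∃ E : PiClass (S : Set ℕ) (centralizer ({d} : Set G)),
          ∃ y : centralizer ({d} : Set G), ConjClasses.mk y = E.1 ∧ ConjClasses.mk (d * (y : G)) = a.1.1 := by
      rintro ⟨C, hC⟩
      obtain ⟨hx1, hx2⟩ := (hprop C).choose_spec
      set x := (hprop C).choose with hx
      have h1 : ConjClasses.mk (piPart {p} x) = ConjClasses.mk d := congrArg Subtype.val hC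
      obtain ⟨c, hc⟩ := isConj_iff.mp (ConjClasses.mk_eq_mk_iff_isConj.mp h1)
      have h2 := piPart_conj {p} x c
      rw [hc] at h2
      set x' := c * x * c⁻¹ with hx'
      have hcomm : Commute d (piRest {p} x') := by
        rw [← h2.1]
        exact (Commute.refl x').pow_pow _ _
      have hyS : IsPiEl (S : Set ℕ) (piRest {p} x') := by
        intro q hq hd
        have h3 : q ∈ ((insert p S : Finset ℕ) : Set ℕ) := by
          have h4 : IsPiEl ((insert p S : Finset ℕ) : Set ℕ) (piRest {p} x') := (hx2.conj c).pow _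
          exact h4 q hq hd
        have h5 : q ∉ ({p} : Set ℕ) := piRest_isPiEl {p} x' q hq hd
        have h3' : q ∈ insert p S := Finset.mem_coe.mp h3
        rcases Finset.mem_insert.mp h3' with h6 | h6
        · exact absurd h6 h5
        · exact h6
      let y : centralizer ({d} : Set G) := ⟨piRest {p} x', mem_cent.mpr hcomm.eq.symm⟩
      refine ⟨⟨ConjClasses.mk y, (mk_prop_iff _ _).mpr (isPiEl_coe.mp hyS)⟩, y, rfl, ?_⟩
      change ConjClasses.mk (d * piRest {p} x') = C.1
      rw [← hx1, ← h2.1, piPart_mul_piRest, ConjClasses.mk_eq_mk_iff_isConj]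
      apply IsConj.symm
      rw [isConj_iff]
      exact ⟨c, rfl⟩
    choose φ ψ hφ hψ using hsub
    apply Nat.card_le_card_of_injective φ
    intro a b hab
    apply Subtype.ext
    apply Subtype.ext
    rw [← hψ a, ← hψ b, ConjClasses.mk_eq_mk_iff_isConj]
    have h1 : ConjClasses.mk (ψ a) = ConjClasses.mk (ψ b) := by rw [hφ a, hφ b, hab]
    obtain ⟨c, hc⟩ := isConj_iff.mp (ConjClasses.mk_eq_mk_iff_isConj.mp h1)
    rw [isConj_iff]
    refine ⟨c, ?_⟩
    have hcd : (c : G) * d = d * c := mem_cent.mp c.2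
    have hc' : (c : G) * (ψ a : G) * (c : G)⁻¹ = ψ b := congrArg Subtype.val hc
    calc (c : G) * (d * (ψ a : G)) * (c : G)⁻¹ = ((c : G) * d) * (ψ a : G) * (c : G)⁻¹ := by group
      _ = d * ((c : G) * (ψ a : G) * (c : G)⁻¹) := by rw [hcd]; group
      _ = d * (ψ b : G) := by rw [hc']

end CfsgLib.H6
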