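import Cfsg.Agent.LibH6P2F
import Cfsg.Agent.LibH22Sp3

/-! `Sp₄(q)`: factorisation through opposite Siegel parabolics. -/

set_option autoImplicit false

namespace CfsgLib.H6S4

open Matrix CfsgLib.G2B

universe v

variable {F : Type v} [Field F]

local notation "M2" => Matrix (Fin 2) (Fin 2) F
local notation "Sp" => Matrix.symplecticGroup (Fin 2) F
local notation "GL2" => GL (Fin 2) F

theorem mem_blocks (A B C D : M2) (h1 : A * Bᵀ = B * Aᵀ) (h2 : C * Dᵀ = D * Cᵀ) (h3 : A * Dᵀ - B * Cᵀ = 1) :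
    fromBlocks A B C D ∈ Sp := by
  rw [SymplecticGroup.mem_iff, Matrix.J, fromBlocks_transpose, fromBlocks_multiply, fromBlocks_multiply]
  have h4 : D * Aᵀ - C * Bᵀ = 1 := by
    have := congrArg transpose h3
    rw [transpose_sub, transpose_mul, transpose_mul, transpose_transpose, transpose_transpose, transpose_one] at this
    exact this
  congr 1
  · simp only [mul_zero, mul_neg, mul_one, zero_add, add_zero, neg_mul]
    rw [h1]; simp
  · simp only [mul_zero, mul_neg, mul_one, zero_add, add_zero, neg_mul]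
    rw [← h3]; abel
  · simp only [mul_zero, mul_neg, mul_one, zero_add, add_zero, neg_mul]
    rw [← h4]; simp [sub_eq_add_neg]
  · simp only [mul_zero, mul_neg, mul_one, zero_add, add_zero, neg_mul]
    rw [h2]; simp

/-- the Levi subgroup -/
noncomputable def Dh (F : Type v) [Field F] : GL (Fin 2) F →* Matrix.symplecticGroup (Fin 2) F where
  toFun Y := ⟨fromBlocks (Y : Matrix (Fin 2) (Fin 2) F) 0 0 ((Y⁻¹ : GL (Fin 2) F) : Matrix (Fin 2) (Fin 2) F)ᵀ, by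
    apply mem_blocks
    · simp
    · simp
    · rw [transpose_transpose, zero_mul, sub_zero, ← Units.val_mul, mul_inv_cancel]; rfl⟩
  map_one' := by
    apply Subtype.ext
    show fromBlocks (1 : Matrix (Fin 2) (Fin 2) F) 0 0 _ = 1
    simp
  map_mul' Y Z := by
    apply Subtype.ext
    show fromBlocks ((Y * Z : GL (Fin 2) F) : Matrix (Fin 2) (Fin 2) F) 0 0 (((Y * Z)⁻¹ : GL (Fin 2) F) : Matrix (Fin 2) (Fin 2) F)ᵀ =
      fromBlocks (Y : Matrix (Fin 2) (Fin 2) F) 0 0 ((Y⁻¹ : GL (Fin 2) F) : Matrix (Fin 2) (Fin 2) F)ᵀ *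
      fromBlocks (Z : Matrix (Fin 2) (Fin 2) F) 0 0 ((Z⁻¹ : GL (Fin 2) F) : Matrix (Fin 2) (Fin 2) F)ᵀ
    rw [fromBlocks_multiply, _root_.mul_inv_rev, Units.val_mul, Units.val_mul, transpose_mul]
    simp

/-- lower unitriangular block matrices -/
def Lo (S : M2) (hS : Sᵀ = S) : Sp := ⟨fromBlocks 1 0 S 1, mem_blocks _ _ _ _ (by simp) (by simp [hS]) (by simp)⟩

/-- upper unitriangular block matrices -/
def Up (S : M2) (hS : Sᵀ = S) : Sp := ⟨fromBlocks 1 S 0 1, mem_blocks _ _ _ _ (by simp [hS]) (by simp) (by simp)⟩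

theorem Lo_mul (S T : M2) (hS : Sᵀ = S) (hT : Tᵀ = T) : Lo S hS * Lo T hT = Lo (S + T) (by rw [transpose_add, hS, hT]) := by
  apply Subtype.ext
  show fromBlocks 1 0 S 1 * fromBlocks 1 0 T 1 = fromBlocks 1 0 (S + T) 1
  rw [fromBlocks_multiply]; simp

theorem Up_mul (S T : M2) (hS : Sᵀ = S) (hT : Tᵀ = T) : Up S hS * Up T hT = Up (S + T) (by rw [transpose_add, hS, hT]) := by
  apply Subtype.ext
  show fromBlocks 1 S 0 1 * fromBlocks 1 T 0 1 = fromBlocks 1 (S + T) 0 1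
  rw [fromBlocks_multiply]; simp [add_comm]

theorem Lo_zero (h : (0 : M2)ᵀ = 0) : Lo (0 : M2) h = 1 := by
  apply Subtype.ext
  show fromBlocks 1 0 0 1 = 1
  simp

theorem Up_zero (h : (0 : M2)ᵀ = 0) : Up (0 : M2) h = 1 := by
  apply Subtype.ext
  show fromBlocks 1 0 0 1 = 1
  simp

theorem Lo_inv (S : M2) (hS : Sᵀ = S) : (Lo S hS)⁻¹ = Lo (-S) (by rw [transpose_neg, hS]) := by
  rw [inv_eq_iff_mul_eq_one, Lo_mul]
  have : S + -S = 0 := add_neg_cancel S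
  simp only [this]
  exact Lo_zero _

theorem Up_inv (S : M2) (hS : Sᵀ = S) : (Up S hS)⁻¹ = Up (-S) (by rw [transpose_neg, hS]) := by
  rw [inv_eq_iff_mul_eq_one, Up_mul]
  have : S + -S = 0 := add_neg_cancel S
  simp only [this]
  exact Up_zero _

theorem ch (Y : M2) (t n : F) (ht : Y.trace = t) (hn : Y.det = n) : Y * (t • 1 - Y) = n • 1 := by
  rw [trace_fin_two] at ht
  rw [det_fin_two] at hn
  apply ext2
  · simp [Matrix.mul_apply, Fin.sum_univ_two]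
    linear_combination hn - Y 0 0 * ht
  · simp [Matrix.mul_apply, Fin.sum_univ_two]
    linear_combination -Y 0 1 * ht
  · simp [Matrix.mul_apply, Fin.sum_univ_two]
    linear_combination -Y 1 0 * ht
  · simp [Matrix.mul_apply, Fin.sum_univ_two]
    linear_combination hn - Y 1 1 * ht

/-- the key injectivity -/
theorem fix_zero (Y R : M2) (t n : F) (ht : Y.trace = t) (hn : Y.det = n) (hn0 : n ≠ 0) (hn1 : n ≠ 1)
    (hir : ∀ a : F, a ^ 2 - t * a + n ≠ 0) (hR : Rᵀ = R) (h : Yᵀ * R * Y = R) : R = 0 := by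
  have hY := ch Y t n ht hn
  have h1 : n • (Yᵀ * R) = t • R - R * Y := by
    have h2 : Yᵀ * R * (Y * (t • 1 - Y)) = R * (t • 1 - Y) := by rw [← mul_assoc, h]
    rw [hY] at h2
    simpa [mul_sub] using h2
  have h2 : n • (R * Y) = t • R - Yᵀ * R := by
    have := congrArg transpose h1
    rw [transpose_sub, transpose_smul, transpose_smul, transpose_mul, transpose_mul, transpose_transpose, hR] at this
    exact this
  obtain ⟨M, hM⟩ : ∃ M : M2, M = (1 + n) • Y - t • 1 := ⟨_, rfl⟩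
  have h3 : R * M = 0 := by
    rw [hM, mul_sub, mul_smul_comm, mul_smul_comm, mul_one]
    ext i j
    have e1 := congrFun (congrFun h1 i) j
    have e2 := congrFun (congrFun h2 i) j
    simp only [Matrix.smul_apply, Matrix.sub_apply, smul_eq_mul, Matrix.zero_apply] at e1 e2 ⊢
    have e3 : (1 - n) * ((Yᵀ * R) i j - (R * Y) i j) = 0 := by linear_combination e2 - e1
    have e4 := sub_eq_zero.mp ((mul_eq_zero.mp e3).resolve_left (sub_ne_zero.mpr hn1.symm))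
    linear_combination e2 - e4
  have hMd : M.det ≠ 0 := by
    have : M.det = n * ((1 + n - t) * (1 + n + t)) := by
      rw [trace_fin_two] at ht
      rw [det_fin_two] at hn
      rw [hM, det_fin_two]
      simp
      rw [← ht, ← hn]
      ring
    rw [this]
    refine mul_ne_zero hn0 (mul_ne_zero ?_ ?_)
    · intro h0; exact hir 1 (by linear_combination h0)
    · intro h0; exact hir (-1) (by linear_combination h0)
  have h4 : R * M * M.adjugate = 0 := by rw [h3, zero_mul]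
  rw [mul_assoc, Matrix.mul_adjugate, mul_smul_comm, mul_one] at h4
  exact (smul_eq_zero.mp h4).resolve_left hMd

/-- symmetric matrices -/
abbrev Sy (F : Type v) [Field F] := {R : Matrix (Fin 2) (Fin 2) F // Rᵀ = R}

theorem solve [Finite F] (Y : M2) (t n : F) (ht : Y.trace = t) (hn : Y.det = n) (hn0 : n ≠ 0) (hn1 : n ≠ 1)
    (hir : ∀ a : F, a ^ 2 - t * a + n ≠ 0) (S : M2) (hS : Sᵀ = S) : ∃ R : M2, Rᵀ = R ∧ Yᵀ * R * Y - R = S := by
  let f : Sy F → Sy F := fun R => ⟨Yᵀ * R.1 * Y - R.1, by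
    rw [transpose_sub, transpose_mul, transpose_mul, transpose_transpose, R.2, ← mul_assoc]⟩
  have hf : Function.Injective f := by
    rintro ⟨R, hR⟩ ⟨R', hR'⟩ h
    have h1 : Yᵀ * R * Y - R = Yᵀ * R' * Y - R' := congrArg Subtype.val h
    apply Subtype.ext
    show R = R'
    have h2 : R - R' = 0 := by
      apply fix_zero Y (R - R') t n ht hn hn0 hn1 hir
      · rw [transpose_sub, hR, hR']
      · rw [mul_sub, sub_mul]
        have : Yᵀ * R * Y - Yᵀ * R' * Y = R - R' := by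
          have h3 : Yᵀ * R * Y = Yᵀ * R' * Y - R' + R := by rw [← h1]; abel
          rw [h3]; abel
        exact this
    exact sub_eq_zero.mp h2
  obtain ⟨⟨R, hR⟩, h⟩ := (Finite.injective_iff_surjective.mp hf) ⟨S, hS⟩
  exact ⟨R, hR, congrArg Subtype.val h⟩

/-- absorbing the lower unipotent radical -/
theorem Lo_conj [Finite F] (Y : GL2) (t n : F) (ht : (Y : M2).trace = t) (hn : (Y : M2).det = n) (hn0 : n ≠ 0) (hn1 : n ≠ 1)
    (hir : ∀ a : F, a ^ 2 - t * a + n ≠ 0) (S : M2) (hS : Sᵀ = S) : ∃ g : Sp, Lo S hS * Dh F Y = g * Dh F Y * g⁻¹ := by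
  obtain ⟨R, hR, h⟩ := solve (Y : M2) t n ht hn hn0 hn1 hir ((Y : M2)ᵀ * S * (Y : M2)) (by
    rw [transpose_mul, transpose_mul, transpose_transpose, hS, ← mul_assoc])
  refine ⟨Lo R hR, ?_⟩
  rw [eq_mul_inv_iff_mul_eq]
  apply Subtype.ext
  show fromBlocks 1 0 S 1 * fromBlocks (Y : M2) 0 0 ((Y⁻¹ : GL2) : M2)ᵀ * fromBlocks 1 0 R 1 =
    fromBlocks 1 0 R 1 * fromBlocks (Y : M2) 0 0 ((Y⁻¹ : GL2) : M2)ᵀ
  rw [fromBlocks_multiply, fromBlocks_multiply, fromBlocks_multiply]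
  simp only [one_mul, mul_one, zero_mul, mul_zero, add_zero, zero_add]
  congr 1
  have hYY : ((Y⁻¹ : GL2) : M2)ᵀ * (Y : M2)ᵀ = 1 := by
    rw [← transpose_mul, ← Units.val_mul, mul_inv_cancel]; simp
  have h2 : ((Y⁻¹ : GL2) : M2)ᵀ * ((Y : M2)ᵀ * R * (Y : M2) - R) = ((Y⁻¹ : GL2) : M2)ᵀ * ((Y : M2)ᵀ * S * (Y : M2)) := by rw [h]
  rw [mul_sub, ← mul_assoc, ← mul_assoc, ← mul_assoc, ← mul_assoc, hYY, one_mul, one_mul] at h2
  rw [← h2]; abel

/-- absorbing the upper unipotent radical -/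
theorem Up_conj [Finite F] (Y : GL2) (t n : F) (ht : (Y : M2).trace = t) (hn : (Y : M2).det = n) (hn0 : n ≠ 0) (hn1 : n ≠ 1)
    (hir : ∀ a : F, a ^ 2 - t * a + n ≠ 0) (S : M2) (hS : Sᵀ = S) : ∃ g : Sp, Dh F Y * Up S hS = g * Dh F Y * g⁻¹ := by
  obtain ⟨R, hR, h⟩ := solve ((Y : M2)ᵀ) t n (by rw [trace_transpose, ht]) (by rw [det_transpose, hn]) hn0 hn1 hir
    ((Y : M2) * S * (Y : M2)ᵀ) (by rw [transpose_mul, transpose_mul, transpose_transpose, hS, ← mul_assoc])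
  rw [transpose_transpose] at h
  refine ⟨(Up (-R) (by rw [transpose_neg, hR])), ?_⟩
  rw [eq_mul_inv_iff_mul_eq]
  apply Subtype.ext
  show fromBlocks (Y : M2) 0 0 ((Y⁻¹ : GL2) : M2)ᵀ * fromBlocks 1 S 0 1 * fromBlocks 1 (-R) 0 1 =
    fromBlocks 1 (-R) 0 1 * fromBlocks (Y : M2) 0 0 ((Y⁻¹ : GL2) : M2)ᵀ
  rw [fromBlocks_multiply, fromBlocks_multiply, fromBlocks_multiply]
  simp only [one_mul, mul_one, zero_mul, mul_zero, add_zero, zero_add]
  congr 1
  have hYY : (Y : M2)ᵀ * ((Y⁻¹ : GL2) : M2)ᵀ = 1 := by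
    rw [← transpose_mul, ← Units.val_mul, inv_mul_cancel]; simp
  have h2 : ((Y : M2) * R * (Y : M2)ᵀ - R) * ((Y⁻¹ : GL2) : M2)ᵀ = ((Y : M2) * S * (Y : M2)ᵀ) * ((Y⁻¹ : GL2) : M2)ᵀ := by rw [h]
  rw [sub_mul, mul_assoc _ _ ((Y⁻¹ : GL2) : M2)ᵀ, mul_assoc _ _ ((Y⁻¹ : GL2) : M2)ᵀ, hYY, mul_one, mul_one] at h2
  rw [← h2, mul_neg, neg_mul]; abel

/-- products of two conjugates -/
def Cov (x G : Sp) : Prop := ∃ u v : Sp, G = (u * x * u⁻¹) * (v * x * v⁻¹)

theorem Cov.conj {x G : Sp} (P : Sp) (h : Cov x (P⁻¹ * G * P)) : Cov x G := by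
  obtain ⟨u, v, h⟩ := h
  refine ⟨P * u, P * v, ?_⟩
  have : G = P * (P⁻¹ * G * P) * P⁻¹ := by group
  rw [this, h]
  group

/-- the block factorisation -/
theorem block (G : Sp) (Y : GL2) (hY : (Y : M2) = (G : Matrix (Fin 2 ⊕ Fin 2) (Fin 2 ⊕ Fin 2) F).toBlocks₁₁) :
    ∃ S T : M2, ∃ hS : Sᵀ = S, ∃ hT : Tᵀ = T, G = Lo S hS * Dh F Y * Up T hT := by
  obtain ⟨A, B, C, D, hG⟩ : ∃ A B C D : M2, (G : Matrix (Fin 2 ⊕ Fin 2) (Fin 2 ⊕ Fin 2) F) = fromBlocks A B C D :=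
    ⟨_, _, _, _, (fromBlocks_toBlocks _).symm⟩
  have hYA : (Y : M2) = A := by rw [hY, hG, toBlocks_fromBlocks₁₁]
  have h1 := SymplecticGroup.mem_iff.mp G.2
  have h2 := SymplecticGroup.mem_iff'.mp G.2
  rw [hG, Matrix.J, fromBlocks_transpose, fromBlocks_multiply, fromBlocks_multiply, fromBlocks_inj] at h1 h2
  simp only [mul_zero, mul_neg, mul_one, zero_add, add_zero, neg_mul] at h1 h2
  obtain ⟨a1, -, -, -⟩ := h1
  obtain ⟨b1, b2, b3, -⟩ := h2
  have hAB : A * Bᵀ = B * Aᵀ := by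
    have := eq_neg_of_add_eq_zero_left a1
    rw [neg_neg] at this
    exact this.symm
  have hAC : Aᵀ * C = Cᵀ * A := by
    have := eq_neg_of_add_eq_zero_left b1
    rw [neg_neg] at this
    exact this.symm
  obtain ⟨Z, hZ⟩ : ∃ Z : M2, Z = ((Y⁻¹ : GL2) : M2) := ⟨_, rfl⟩
  have hAZ : A * Z = 1 := by rw [hZ, ← hYA, ← Units.val_mul, mul_inv_cancel]; rfl
  have hZA : Z * A = 1 := by rw [hZ, ← hYA, ← Units.val_mul, inv_mul_cancel]; rfl
  have hZtAt : Zᵀ * Aᵀ = 1 := by rw [← transpose_mul, hAZ, transpose_one]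
  have hAtZt : Aᵀ * Zᵀ = 1 := by rw [← transpose_mul, hZA, transpose_one]
  have hCZ : C * Z = Zᵀ * Cᵀ := by
    have : Zᵀ * (Aᵀ * C) * Z = Zᵀ * (Cᵀ * A) * Z := by rw [hAC]
    rw [← mul_assoc, hZtAt, one_mul, mul_assoc, mul_assoc, hAZ, mul_one] at this
    exact this
  have hZB : Z * B = Bᵀ * Zᵀ := by
    have : Z * (A * Bᵀ) * Zᵀ = Z * (B * Aᵀ) * Zᵀ := by rw [hAB]
    rw [← mul_assoc, hZA, one_mul, mul_assoc, mul_assoc, hAtZt, mul_one] at this
    exact this.symm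
  refine ⟨C * Z, Z * B, ?_, ?_, ?_⟩
  · rw [transpose_mul, hCZ]
  · rw [transpose_mul, hZB]
  · apply Subtype.ext
    show (G : Matrix (Fin 2 ⊕ Fin 2) (Fin 2 ⊕ Fin 2) F) = fromBlocks 1 0 (C * Z) 1 * fromBlocks (Y : M2) 0 0 ((Y⁻¹ : GL2) : M2)ᵀ * fromBlocks 1 (Z * B) 0 1
    rw [hG, fromBlocks_multiply, fromBlocks_multiply, ← hZ, hYA]
    simp only [one_mul, mul_one, zero_mul, mul_zero, add_zero, zero_add]
    congr 1
    · rw [← mul_assoc, hAZ, one_mul]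
    · rw [mul_assoc, hZA, mul_one]
    · -- `D = C Z B + Zᵀ`
      have h3 : Aᵀ * D = 1 + Cᵀ * B := by
        have h5 : -(Aᵀ * D) + Cᵀ * B = -1 := by rw [← b2]; abel
        rw [← sub_eq_zero]
        have : Aᵀ * D - (1 + Cᵀ * B) = -((-(Aᵀ * D) + Cᵀ * B) - (-1)) := by abel
        rw [this, h5, sub_self, neg_zero]
      have h4 : Zᵀ * (Aᵀ * D) = Zᵀ * (1 + Cᵀ * B) := by rw [h3]
      rw [← mul_assoc, hZtAt, one_mul, mul_add, mul_one, ← mul_assoc, ← hCZ] at h4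
      rw [h4, mul_assoc C Z A, hZA, mul_one, ← mul_assoc]
      abel

end CfsgLib.H6S4
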