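import Cfsg.Agent.LibH6S4A

/-! `Sp₄(q)`: covering elements whose compression is good. -/

set_option autoImplicit false

namespace CfsgLib.H6S4

open Matrix CfsgLib.G2B

universe v

variable {F : Type v} [Field F]

local notation "M2" => Matrix (Fin 2) (Fin 2) F
local notation "Sp" => Matrix.symplecticGroup (Fin 2) F
local notation "GL2" => GL (Fin 2) F

/-- the data defining the class -/
structure Dat (F : Type v) [Field F] (t n : F) : Prop where
  n0 : n ≠ 0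
  n1 : n ≠ 1
  ir : ∀ a : F, a ^ 2 - t * a + n ≠ 0
  con : ∀ s : F, s ≠ 2 * n → ∃ a c : F, a ^ 2 + s * a * c + n ^ 2 * c ^ 2 - t * a - t * n * c + n = 0

theorem Dat.nsc {t n : F} (D : Dat F t n) {Y : M2} (ht : Y.trace = t) (hn : Y.det = n) : ¬ IsSc Y := by
  intro h
  apply D.ir (Y 0 0)
  rw [trace_fin_two, ← h.2.2] at ht
  rw [det_fin_two, h.1, ← h.2.2] at hn
  linear_combination Y 0 0 * ht - hn

theorem prod2 {t n : F} (D : Dat F t n) (A : M2) (hA : ¬ IsSc A) (hd : A.det = n ^ 2) (htr : A.trace ≠ 2 * n) :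
    ∃ Y Z : M2, A = Y * Z ∧ Y.trace = t ∧ Y.det = n ∧ Z.trace = t ∧ Z.det = n := by
  have n0 := D.n0
  obtain ⟨P, hP, h1⟩ := exists_cyclic A hA
  rw [hd] at h1
  obtain ⟨s, hs⟩ : ∃ s, s = A.trace := ⟨_, rfl⟩
  rw [← hs] at h1 htr
  obtain ⟨a, c, hac⟩ := D.con s htr
  obtain ⟨b, hb⟩ : ∃ b, b = a * s + c * n ^ 2 - t * n := ⟨_, rfl⟩
  -- `Y₀ = [a b; c t-a]`, `Z₀ = Y₀⁻¹ C`
  obtain ⟨Y, hY⟩ : ∃ Y : M2, Y = !![a, b; c, t - a] := ⟨_, rfl⟩
  obtain ⟨Z, hZ⟩ : ∃ Z : M2, Z = !![-b * n⁻¹, n⁻¹ * (-(t - a) * n ^ 2 - b * s); a * n⁻¹, n⁻¹ * (c * n ^ 2 + a * s)] := ⟨_, rfl⟩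
  have hYd : Y.det = n := by rw [hY, det_fin_two_of, hb]; linear_combination -hac
  have hYt : Y.trace = t := by rw [hY, trace_fin_two_of]; ring
  have hZt : Z.trace = t := by
    rw [hZ, trace_fin_two_of, hb]; field_simp; ring
  have hYZ : Y * Z = !![0, -n ^ 2; 1, s] := by
    rw [hY, det_fin_two_of] at hYd
    have e : a * (t - a) - b * c = n := hYd
    rw [hY, hZ]
    apply ext2 <;> simp [Matrix.mul_apply, Fin.sum_univ_two]
    · field_simp; ring
    · field_simp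
      linear_combination (-n ^ 2) * e
    · field_simp
      linear_combination e
    · field_simp
      linear_combination s * e
  have hZd : Z.det = n := by
    have : (Y * Z).det = n ^ 2 := by rw [hYZ, det_fin_two_of]; ring
    rw [det_mul, hYd] at this
    apply mul_left_cancel₀ n0
    rw [this]; ring
  have hPi : P * P⁻¹ = 1 := Matrix.mul_nonsing_inv P (isUnit_iff_ne_zero.mpr hP)
  have hPi' : P⁻¹ * P = 1 := Matrix.nonsing_inv_mul P (isUnit_iff_ne_zero.mpr hP)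
  have tr : ∀ M : M2, (P * M * P⁻¹).trace = M.trace := by
    intro M
    rw [Matrix.trace_mul_comm, ← mul_assoc, hPi', one_mul]
  have dt : ∀ M : M2, (P * M * P⁻¹).det = M.det := by
    intro M
    have : P.det * (P⁻¹).det = 1 := by rw [← det_mul, hPi, det_one]
    rw [det_mul, det_mul]
    linear_combination M.det * this
  refine ⟨P * Y * P⁻¹, P * Z * P⁻¹, ?_, by rw [tr, hYt], by rw [dt, hYd], by rw [tr, hZt], by rw [dt, hZd]⟩
  have h3 : P * Y * P⁻¹ * (P * Z * P⁻¹) = P * (Y * Z) * P⁻¹ := by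
    calc P * Y * P⁻¹ * (P * Z * P⁻¹) = P * Y * (P⁻¹ * P) * Z * P⁻¹ := by simp only [mul_assoc]
      _ = _ := by rw [hPi', mul_one, mul_assoc P Y Z]
  rw [h3, hYZ, ← h1, mul_assoc, hPi, mul_one]

theorem cov_of_A [Finite F] {t n : F} (D : Dat F t n) (X : GL2) (hXt : (X : M2).trace = t) (hXn : (X : M2).det = n)
    (G : Sp) (hA : ¬ IsSc (G : Matrix (Fin 2 ⊕ Fin 2) (Fin 2 ⊕ Fin 2) F).toBlocks₁₁)
    (hd : (G : Matrix (Fin 2 ⊕ Fin 2) (Fin 2 ⊕ Fin 2) F).toBlocks₁₁.det = n ^ 2)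
    (htr : (G : Matrix (Fin 2 ⊕ Fin 2) (Fin 2 ⊕ Fin 2) F).toBlocks₁₁.trace ≠ 2 * n) : Cov (Dh F X) G := by
  obtain ⟨Y, Z, hYZ, hYt, hYd, hZt, hZd⟩ := prod2 D _ hA hd htr
  have n0 := D.n0
  obtain ⟨y, hy⟩ : ∃ y : GL2, y = mkGL Y (by rw [hYd]; exact n0) := ⟨_, rfl⟩
  obtain ⟨z, hz⟩ : ∃ z : GL2, z = mkGL Z (by rw [hZd]; exact n0) := ⟨_, rfl⟩
  have hyY : (y : M2) = Y := by rw [hy]; rfl
  have hzZ : (z : M2) = Z := by rw [hz]; rfl
  obtain ⟨S, T, hS, hT, hG⟩ := block G (y * z) (by rw [Units.val_mul, hyY, hzZ, hYZ])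
  obtain ⟨g1, hg1⟩ := Lo_conj y t n (by rw [hyY, hYt]) (by rw [hyY, hYd]) D.n0 D.n1 D.ir S hS
  obtain ⟨g2, hg2⟩ := Up_conj z t n (by rw [hzZ, hZt]) (by rw [hzZ, hZd]) D.n0 D.n1 D.ir T hT
  have c1 : IsConj X y := gl_conj (D.nsc hXt hXn) (by rw [hyY]; exact D.nsc hYt hYd) (by rw [hXt, hyY, hYt]) (by rw [hXn, hyY, hYd])
  have c2 : IsConj X z := gl_conj (D.nsc hXt hXn) (by rw [hzZ]; exact D.nsc hZt hZd) (by rw [hXt, hzZ, hZt]) (by rw [hXn, hzZ, hZd])
  obtain ⟨l1, hl1⟩ := isConj_iff.mp c1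
  obtain ⟨l2, hl2⟩ := isConj_iff.mp c2
  refine ⟨g1 * Dh F l1, g2 * Dh F l2, ?_⟩
  have e1 : g1 * Dh F l1 * Dh F X * (g1 * Dh F l1)⁻¹ = Lo S hS * Dh F y := by
    rw [hg1, ← hl1, map_mul, map_mul, map_inv]; group
  have e2 : g2 * Dh F l2 * Dh F X * (g2 * Dh F l2)⁻¹ = Dh F z * Up T hT := by
    rw [hg2, ← hl2, map_mul, map_mul, map_inv]; group
  rw [e1, e2, hG, map_mul]; group

/-- the data exist in odd characteristic -/
theorem dat_odd [Fintype F] (hodd : Odd (Fintype.card F)) (h2 : (2 : F) ≠ 0) : ∃ t : F, Dat F t (-1) := by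
  classical
  obtain ⟨t, ht⟩ : ∃ t : F, ∀ a : F, a ^ 2 - t * a + (-1) ≠ 0 := by
    by_contra hcon
    push Not at hcon
    -- `a ↦ a - 1/a` would be a surjection
    have hsurj : Function.Surjective (fun u : Fˣ => (u : F) - (u : F)⁻¹) := by
      intro t
      obtain ⟨a, ha⟩ := hcon t
      have ha0 : a ≠ 0 := by rintro rfl; simp at ha
      refine ⟨Units.mk0 a ha0, ?_⟩
      show a - a⁻¹ = t
      field_simp
      linear_combination ha
    have := Fintype.card_le_of_surjective _ hsurj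
    rw [Fintype.card_units] at this
    have := Fintype.card_pos (α := F)
    omega
  have ht0 : t ≠ 0 := by
    rintro rfl
    exact ht 1 (by ring)
  refine ⟨t, neg_ne_zero.mpr one_ne_zero, ?_, ht, ?_⟩
  · intro h
    apply h2
    linear_combination -h
  · intro s hs
    have hs2 : s + 2 ≠ 0 := by
      intro h; apply hs; linear_combination h
    suffices h : ∃ w z : F, (2 - s) * w ^ 2 - 4 * t * w - 4 = -(s + 2) * z ^ 2 by
      obtain ⟨w, z, hwz⟩ := h
      refine ⟨(w + z) / 2, -((w - z) / 2), ?_⟩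
      field_simp
      linear_combination hwz
    by_cases hs' : 2 - s = 0
    · refine ⟨-1 / t, 0, ?_⟩
      rw [hs']
      field_simp
      ring
    · obtain ⟨x, y, hxy⟩ := FiniteField.exists_root_sum_quadratic (R := F)
        (f := Polynomial.C (2 - s) * Polynomial.X ^ 2 + Polynomial.C (-4 * t) * Polynomial.X + Polynomial.C (-4))
        (g := Polynomial.C (s + 2) * Polynomial.X ^ 2)
        (Polynomial.degree_quadratic hs') (by
          rw [Polynomial.degree_mul, Polynomial.degree_C hs2, Polynomial.degree_X_pow, zero_add]; rfl)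
        (Nat.odd_iff.mp hodd)
      simp only [Polynomial.eval_add, Polynomial.eval_pow, Polynomial.eval_X, Polynomial.eval_C, Polynomial.eval_mul] at hxy
      exact ⟨x, y, by linear_combination hxy⟩

/-- the data exist in characteristic two -/
theorem dat_even [Fintype F] [CharP F 2] (n : F) (n0 : n ≠ 0) (n1 : n ≠ 1) : ∃ t : F, Dat F t n := by
  classical
  have h2 : (2 : F) = 0 := by exact_mod_cast CharP.cast_eq_zero F 2
  obtain ⟨t, ht⟩ : ∃ t : F, ∀ a : F, a ^ 2 - t * a + n ≠ 0 := by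
    by_contra hcon
    push Not at hcon
    have hsurj : Function.Surjective (fun u : Fˣ => (u : F) + n * (u : F)⁻¹) := by
      intro t
      obtain ⟨a, ha⟩ := hcon t
      have ha0 : a ≠ 0 := by rintro rfl; simp at ha; exact n0 ha
      refine ⟨Units.mk0 a ha0, ?_⟩
      show a + n * a⁻¹ = t
      field_simp
      linear_combination ha
    have := Fintype.card_le_of_surjective _ hsurj
    rw [Fintype.card_units] at this
    have := Fintype.card_pos (α := F)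
    omega
  refine ⟨t, n0, n1, ht, ?_⟩
  intro s hs
  rw [h2, zero_mul] at hs
  obtain ⟨σ, hσ⟩ : ∃ σ, σ = s / n := ⟨_, rfl⟩
  have hσ0 : σ ≠ 0 := by rw [hσ]; exact div_ne_zero hs n0
  have hsn : s = σ * n := by rw [hσ]; field_simp
  obtain ⟨e, he⟩ : ∃ e, e = t / σ := ⟨_, rfl⟩
  have het : t = σ * e := by rw [he]; field_simp
  obtain ⟨a1, c1, h1⟩ := form_char_two σ (σ * e ^ 2 + n)
  refine ⟨a1 + e, (c1 + e) / n, ?_⟩
  rw [hsn, het]
  field_simp
  linear_combination h1 + (e ^ 2 + n + e * a1 + e * c1) * h2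

end CfsgLib.H6S4
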