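import Cfsg.Agent.LibH6S4B

/-! `Sp₄(q)`: frames and good pairs. -/

set_option autoImplicit false

namespace CfsgLib.H6S4

open Matrix CfsgLib.G2B

universe v

variable {F : Type v} [Field F]

local notation "M2" => Matrix (Fin 2) (Fin 2) F
local notation "Sp" => Matrix.symplecticGroup (Fin 2) F
local notation "GL2" => GL (Fin 2) F

/-- the natural module -/
abbrev V (F : Type v) := Fin 2 ⊕ Fin 2 → F

/-- the form -/
def om (u v : V F) : F :=
  u (Sum.inl 0) * v (Sum.inr 0) + u (Sum.inl 1) * v (Sum.inr 1) - u (Sum.inr 0) * v (Sum.inl 0) - u (Sum.inr 1) * v (Sum.inl 1)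

theorem om_eq (u v : V F) : om u v = - Cfsg.sympForm 2 F u v := by
  rw [Cfsg.Agent.H22.sympForm_eq_sum, Fin.sum_univ_two]; unfold om; ring

theorem om_sp (G : Sp) (u v : V F) : om (G.1 *ᵥ u) (G.1 *ᵥ v) = om u v := by
  rw [om_eq, om_eq, Cfsg.Agent.H22.mem_sp_iff.mp G.2]

theorem om_add_left (u u' v : V F) : om (u + u') v = om u v + om u' v := by
  unfold om; simp only [Pi.add_apply]; ring

theorem om_add_right (u v v' : V F) : om u (v + v') = om u v + om u v' := by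
  unfold om; simp only [Pi.add_apply]; ring

theorem om_smul_left (a : F) (u v : V F) : om (a • u) v = a * om u v := by
  unfold om; simp only [Pi.smul_apply, smul_eq_mul]; ring

theorem om_smul_right (a : F) (u v : V F) : om u (a • v) = a * om u v := by
  unfold om; simp only [Pi.smul_apply, smul_eq_mul]; ring

theorem om_self (u : V F) : om u u = 0 := by unfold om; ring

theorem om_comm (u v : V F) : om u v = - om v u := by unfold om; ring

theorem om_neg_left (u v : V F) : om (-u) v = - om u v := by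
  unfold om; simp only [Pi.neg_apply]; ring

theorem om_neg_right (u v : V F) : om u (-v) = - om u v := by
  unfold om; simp only [Pi.neg_apply]; ring

/-- a vector by coordinates -/
def mk4 (a b c d : F) : V F := Sum.elim ![a, b] ![c, d]

theorem eq_mk4 (u : V F) : u = mk4 (u (Sum.inl 0)) (u (Sum.inl 1)) (u (Sum.inr 0)) (u (Sum.inr 1)) := by
  funext i
  rcases i with i | i <;> fin_cases i <;> rfl

theorem mk4_eq (a b c d : F) : mk4 a b c d = a • mk4 1 0 0 0 + b • mk4 0 1 0 0 + c • mk4 0 0 1 0 + d • mk4 0 0 0 1 := by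
  funext i
  rcases i with i | i <;> fin_cases i <;> simp [mk4]

theorem om_mk4 (a b c d a' b' c' d' : F) : om (mk4 a b c d) (mk4 a' b' c' d') = a * c' + b * d' - c * a' - d * b' := rfl

theorem mv (M : Matrix (Fin 2 ⊕ Fin 2) (Fin 2 ⊕ Fin 2) F) (a b c d : F) :
    M *ᵥ mk4 a b c d = a • M *ᵥ mk4 1 0 0 0 + b • M *ᵥ mk4 0 1 0 0 + c • M *ᵥ mk4 0 0 1 0 + d • M *ᵥ mk4 0 0 0 1 := by
  conv_lhs => rw [mk4_eq]
  rw [mulVec_add, mulVec_add, mulVec_add, mulVec_smul, mulVec_smul, mulVec_smul, mulVec_smul]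

theorem frame (w1 w2 u1 u2 : V F) (h12 : om w1 w2 = 0) (k12 : om u1 u2 = 0) (a11 : om w1 u1 = 1) (a22 : om w2 u2 = 1)
    (a12 : om w1 u2 = 0) (a21 : om w2 u1 = 0) :
    ∃ P : Sp, P.1 *ᵥ mk4 1 0 0 0 = w1 ∧ P.1 *ᵥ mk4 0 1 0 0 = w2 ∧ P.1 *ᵥ mk4 0 0 1 0 = u1 ∧ P.1 *ᵥ mk4 0 0 0 1 = u2 := by
  obtain ⟨M, hM⟩ : ∃ M : Matrix (Fin 2 ⊕ Fin 2) (Fin 2 ⊕ Fin 2) F,
    M = Matrix.of (fun i j => mk4 (w1 i) (w2 i) (u1 i) (u2 i) j) := ⟨_, rfl⟩
  have hMv : ∀ a b c d : F, M *ᵥ mk4 a b c d = a • w1 + b • w2 + c • u1 + d • u2 := by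
    intro a b c d
    funext i
    rw [hM]
    simp [Matrix.mulVec, dotProduct, Fintype.sum_sum_type, mk4]
    ring
  have hMs : M ∈ Sp := by
    rw [Cfsg.Agent.H22.mem_sp_iff]
    intro u v
    rw [← neg_inj, ← om_eq, ← om_eq]
    rw [eq_mk4 u, eq_mk4 v]
    generalize u (Sum.inl 0) = x0
    generalize u (Sum.inl 1) = x1
    generalize u (Sum.inr 0) = x2
    generalize u (Sum.inr 1) = x3
    generalize v (Sum.inl 0) = y0
    generalize v (Sum.inl 1) = y1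
    generalize v (Sum.inr 0) = y2
    generalize v (Sum.inr 1) = y3
    rw [hMv, hMv, om_mk4]
    simp only [om_add_left, om_add_right, om_smul_left, om_smul_right, om_self]
    rw [om_comm w2 w1, om_comm u1 w1, om_comm u1 w2, om_comm u2 w1, om_comm u2 w2, om_comm u2 u1, h12, k12, a11, a22, a12, a21]
    ring
  refine ⟨⟨M, hMs⟩, ?_, ?_, ?_, ?_⟩
  · show M *ᵥ mk4 1 0 0 0 = w1
    rw [hMv]; simp
  · show M *ᵥ mk4 0 1 0 0 = w2
    rw [hMv]; simp
  · show M *ᵥ mk4 0 0 1 0 = u1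
    rw [hMv]; simp
  · show M *ᵥ mk4 0 0 0 1 = u2
    rw [hMv]; simp

theorem entry (M : Matrix (Fin 2 ⊕ Fin 2) (Fin 2 ⊕ Fin 2) F) :
    M.toBlocks₁₁ = !![om (M *ᵥ mk4 1 0 0 0) (mk4 0 0 1 0), om (M *ᵥ mk4 0 1 0 0) (mk4 0 0 1 0);
      om (M *ᵥ mk4 1 0 0 0) (mk4 0 0 0 1), om (M *ᵥ mk4 0 1 0 0) (mk4 0 0 0 1)] := by
  apply ext2 <;> simp [om, Matrix.mulVec, dotProduct, Fintype.sum_sum_type, mk4, toBlocks₁₁]

theorem cov_of_frame [Finite F] {t n : F} (D : Dat F t n) (X : GL2) (hXt : (X : M2).trace = t) (hXn : (X : M2).det = n)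
    (G : Sp) (w1 w2 u1 u2 : V F) (h12 : om w1 w2 = 0) (k12 : om u1 u2 = 0) (a11 : om w1 u1 = 1) (a22 : om w2 u2 = 1)
    (a12 : om w1 u2 = 0) (a21 : om w2 u1 = 0)
    (hA : om (G.1 *ᵥ w1) u2 ≠ 0 ∨ om (G.1 *ᵥ w2) u1 ≠ 0)
    (hd : om (G.1 *ᵥ w1) u1 * om (G.1 *ᵥ w2) u2 - om (G.1 *ᵥ w2) u1 * om (G.1 *ᵥ w1) u2 = n ^ 2)
    (htr : om (G.1 *ᵥ w1) u1 + om (G.1 *ᵥ w2) u2 ≠ 2 * n) : Cov (Dh F X) G := by
  obtain ⟨P, p1, p2, p3, p4⟩ := frame w1 w2 u1 u2 h12 k12 a11 a22 a12 a21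
  apply Cov.conj P
  have hPi : P.1 * (P⁻¹).1 = 1 := congrArg Subtype.val (mul_inv_cancel P)
  have key : ∀ x y : V F, om ((P⁻¹ * G * P).1 *ᵥ x) y = om (G.1 *ᵥ (P.1 *ᵥ x)) (P.1 *ᵥ y) := by
    intro x y
    have h1 : P.1 *ᵥ ((P⁻¹ * G * P).1 *ᵥ x) = G.1 *ᵥ (P.1 *ᵥ x) := by
      have : (P⁻¹ * G * P).1 = (P⁻¹).1 * G.1 * P.1 := rfl
      rw [this, mulVec_mulVec, mulVec_mulVec, ← mul_assoc, ← mul_assoc, hPi, one_mul]
    rw [← om_sp P, h1]
  have hblk : (P⁻¹ * G * P).1.toBlocks₁₁ = !![om (G.1 *ᵥ w1) u1, om (G.1 *ᵥ w2) u1; om (G.1 *ᵥ w1) u2, om (G.1 *ᵥ w2) u2] := by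
    rw [entry, key, key, key, key, p1, p2, p3, p4]
  apply cov_of_A D X hXt hXn
  · rw [hblk]
    intro h
    rcases hA with h1 | h1
    · exact h1 (by simpa using h.2.1)
    · exact h1 (by simpa using h.1)
  · rw [hblk, det_fin_two_of]; exact hd
  · rw [hblk, trace_fin_two_of]; exact htr

/-- the scalar choice -/
theorem choose_xy [Fintype F] (h3 : 3 ≤ Fintype.card F) (c d e n δ : F) (hc : c ≠ 0) (hd : d ≠ 0) (hn : n ≠ 0) :
    ∃ x y : F, x ≠ 0 ∧ y ≠ 0 ∧ c * x ^ 2 + (y * e - 2 * n) * x + d * (δ + y ^ 2) ≠ 0 := by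
  classical
  by_cases h2 : (2 : F) = 0
  · obtain ⟨w, hw⟩ : ∃ w : F, w ∉ ({0, 1} : Finset F) := by
      by_contra hcon
      push Not at hcon
      have h1 : (Finset.univ : Finset F) ⊆ {0, 1} := fun x _ => hcon x
      have h2 := Finset.card_le_card h1
      rw [Finset.card_univ] at h2
      have h3 := Finset.card_le_two (a := (0 : F)) (b := 1)
      omega
    rw [Finset.mem_insert, Finset.mem_singleton, not_or] at hw
    have hw1 : w + 1 ≠ 0 := by
      intro h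
      apply hw.2
      linear_combination h - h2
    by_contra hcon
    push Not at hcon
    have e1 := hcon 1 1 one_ne_zero one_ne_zero
    have e2 := hcon w 1 hw.1 one_ne_zero
    have e3 := hcon (w + 1) 1 hw1 one_ne_zero
    have e4 : d * (δ + 1 ^ 2) = 0 := by
      linear_combination e1 + e2 + e3 - (c * (w ^ 2 + w + 1) + (1 * e - 2 * n) * (w + 1) + d * (δ + 1 ^ 2)) * h2
    have e5 : (c * w + (1 * e - 2 * n)) * w = 0 := by linear_combination e2 - e4
    have e6 := (mul_eq_zero.mp e5).resolve_right hw.1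
    have e7 : c * (1 - w) = 0 := by linear_combination e1 - e4 - e6
    rcases mul_eq_zero.mp e7 with e8 | e8
    · exact hc e8
    · exact hw.2 (sub_eq_zero.mp e8).symm
  · obtain ⟨y, hy, hye⟩ : ∃ y : F, y ≠ 0 ∧ y * e - 2 * n ≠ 0 := by
      by_cases h : (1 : F) * e - 2 * n = 0
      · refine ⟨-1, neg_ne_zero.mpr one_ne_zero, ?_⟩
        intro h'
        have : (2 : F) * (2 * n) = 0 := by linear_combination -h - h'
        rcases mul_eq_zero.mp this with h4 | h4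
        · exact h2 h4
        · rcases mul_eq_zero.mp h4 with h5 | h5
          · exact h2 h5
          · exact hn h5
      · exact ⟨1, one_ne_zero, h⟩
    by_cases h : c * 1 ^ 2 + (y * e - 2 * n) * 1 + d * (δ + y ^ 2) = 0
    · refine ⟨-1, y, neg_ne_zero.mpr one_ne_zero, hy, ?_⟩
      intro h'
      have : (2 : F) * (y * e - 2 * n) = 0 := by linear_combination h - h'
      rcases mul_eq_zero.mp this with h4 | h4
      · exact h2 h4
      · exact hye h4
    · exact ⟨1, y, one_ne_zero, hy, h⟩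

/-- covering from a good pair -/
theorem cov_good [Fintype F] (h3 : 3 ≤ Fintype.card F) {t n : F} (D : Dat F t n) (X : GL2) (hXt : (X : M2).trace = t)
    (hXn : (X : M2).det = n) (G : Sp) (v h : V F) (hvh : om v h = 0) (hgvh : om (G.1 *ᵥ v) h = 0)
    (hc : om (G.1 *ᵥ v) v ≠ 0) (hd : om (G.1 *ᵥ h) h ≠ 0) : Cov (Dh F X) G := by
  obtain ⟨a, ha⟩ : ∃ a, a = G.1 *ᵥ v := ⟨_, rfl⟩
  obtain ⟨b, hb⟩ : ∃ b, b = G.1 *ᵥ h := ⟨_, rfl⟩
  have hab : om a b = 0 := by rw [ha, hb, om_sp, hvh]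
  rw [← ha] at hgvh hc
  rw [← hb] at hd
  obtain ⟨c, hcc⟩ : ∃ c, c = om a v := ⟨_, rfl⟩
  obtain ⟨d, hdd⟩ : ∃ d, d = om b h := ⟨_, rfl⟩
  obtain ⟨e, hee⟩ : ∃ e, e = om b v := ⟨_, rfl⟩
  rw [← hcc] at hc
  rw [← hdd] at hd
  obtain ⟨x, y, hx, hy, hxy⟩ := choose_xy h3 c d e n (n ^ 2 / (c * d)) hc hd D.n0
  obtain ⟨z, hz⟩ : ∃ z, z = (n ^ 2 / (c * d) + y ^ 2) / x := ⟨_, rfl⟩
  have b1 : om v a = -c := by rw [om_comm, hcc]
  have b2 : om v b = -e := by rw [om_comm, hee]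
  have b3 : om h a = 0 := by rw [om_comm, hgvh, neg_zero]
  have b4 : om h b = -d := by rw [om_comm, hdd]
  have b5 : om h v = 0 := by rw [om_comm, hvh, neg_zero]
  have b6 : om b a = 0 := by rw [om_comm, hab, neg_zero]
  apply cov_of_frame D X hXt hXn G v h ((-c⁻¹) • a + x • v + y • h) ((e * (c⁻¹ * d⁻¹)) • a + (-d⁻¹) • b + y • v + z • h) hvh
  · simp only [om_add_left, om_add_right, om_smul_left, om_smul_right, om_self, hab, b1, b2, b3, b4, b5, hvh, hgvh, ← hcc, ← hdd, ← hee]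
    field_simp
    ring
  · simp only [om_add_left, om_add_right, om_smul_left, om_smul_right, om_self, hab, b1, b2, b3, b4, b5, hvh, hgvh, ← hcc, ← hdd, ← hee]
    field_simp
    ring
  · simp only [om_add_left, om_add_right, om_smul_left, om_smul_right, om_self, hab, b1, b2, b3, b4, b5, hvh, hgvh, ← hcc, ← hdd, ← hee]
    field_simp
    ring
  · simp only [om_add_left, om_add_right, om_smul_left, om_smul_right, om_self, hab, b1, b2, b3, b4, b5, hvh, hgvh, ← hcc, ← hdd, ← hee]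
    field_simp
    ring
  · simp only [om_add_left, om_add_right, om_smul_left, om_smul_right, om_self, hab, b1, b2, b3, b4, b5, hvh, hgvh, ← hcc, ← hdd, ← hee]
    ring
  · left
    rw [← ha]
    simp only [om_add_left, om_add_right, om_smul_left, om_smul_right, om_self, hab, b1, b2, b3, b4, b5, hvh, hgvh, ← hcc, ← hdd, ← hee]
    intro h0
    apply mul_ne_zero hy hc
    linear_combination h0
  · rw [← ha, ← hb]
    simp only [om_add_left, om_add_right, om_smul_left, om_smul_right, om_self, hab, b1, b2, b3, b4, b5, b6, hvh, hgvh, ← hcc, ← hdd, ← hee]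
    rw [hz]
    field_simp
    ring
  · rw [← ha, ← hb]
    simp only [om_add_left, om_add_right, om_smul_left, om_smul_right, om_self, hab, b1, b2, b3, b4, b5, b6, hvh, hgvh, ← hcc, ← hdd, ← hee]
    intro h0
    apply hxy
    have hzx : z * x = n ^ 2 / (c * d) + y ^ 2 := by rw [hz, div_mul_cancel₀ _ hx]
    linear_combination x * h0 - d * hzx

end CfsgLib.H6S4
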