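import Cfsg.Agent.LibH6S4C

/-! `Sp₄(q)`: case analysis. -/

set_option autoImplicit false

namespace CfsgLib.H6S4

open Matrix CfsgLib.G2B

universe v

variable {F : Type v} [Field F]

local notation "M2" => Matrix (Fin 2) (Fin 2) F
local notation "Sp" => Matrix.symplecticGroup (Fin 2) F
local notation "GL2" => GL (Fin 2) F

theorem smul_mk4 (r a b c d : F) : r • mk4 a b c d = mk4 (r * a) (r * b) (r * c) (r * d) := by
  funext i
  rcases i with i | i <;> fin_cases i <;> rfl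

theorem add_mk4 (a b c d a' b' c' d' : F) : mk4 a b c d + mk4 a' b' c' d' = mk4 (a + a') (b + b') (c + c') (d + d') := by
  funext i
  rcases i with i | i <;> fin_cases i <;> rfl

theorem mk4_inj {a b c d a' b' c' d' : F} (h : mk4 a b c d = mk4 a' b' c' d') : a = a' ∧ b = b' ∧ c = c' ∧ d = d' :=
  ⟨congrFun h (Sum.inl 0), congrFun h (Sum.inl 1), congrFun h (Sum.inr 0), congrFun h (Sum.inr 1)⟩

theorem om_left_zero {y : V F} (h : ∀ x, om x y = 0) : y = 0 := by
  have h1 := h (mk4 1 0 0 0)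
  have h2 := h (mk4 0 1 0 0)
  have h3 := h (mk4 0 0 1 0)
  have h4 := h (mk4 0 0 0 1)
  rw [eq_mk4 y, om_mk4] at h1 h2 h3 h4
  rw [eq_mk4 y]
  have e1 : y (Sum.inr 0) = 0 := by linear_combination h1
  have e2 : y (Sum.inr 1) = 0 := by linear_combination h2
  have e3 : y (Sum.inl 0) = 0 := by linear_combination -h3
  have e4 : y (Sum.inl 1) = 0 := by linear_combination -h4
  rw [e1, e2, e3, e4]
  funext i
  rcases i with i | i <;> fin_cases i <;> rfl

theorem exists_char2 [Fintype F] (h3 : 3 ≤ Fintype.card F) : ∃ w : F, w ≠ 0 ∧ w ≠ 1 := by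
  classical
  obtain ⟨w, hw⟩ : ∃ w : F, w ∉ ({0, 1} : Finset F) := by
    by_contra hcon
    push Not at hcon
    have h1 : (Finset.univ : Finset F) ⊆ {0, 1} := fun x _ => hcon x
    have h2 := Finset.card_le_card h1
    rw [Finset.card_univ] at h2
    have h3 := Finset.card_le_two (a := (0 : F)) (b := 1)
    omega
  rw [Finset.mem_insert, Finset.mem_singleton, not_or] at hw
  exact ⟨w, hw⟩

theorem solve_lin {l1 l2 : F} (hl : ¬ (l1 = 0 ∧ l2 = 0)) (r : F) : ∃ m1 m2 : F, m1 * l1 + m2 * l2 = r := by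
  by_cases h : l1 = 0
  · have h2 : l2 ≠ 0 := fun h2 => hl ⟨h, h2⟩
    exact ⟨0, r / l2, by field_simp; ring⟩
  · exact ⟨r / l1, 0, by field_simp; ring⟩

/-- the special form -/
theorem cov_special [Fintype F] (h3 : 3 ≤ Fintype.card F) {t n : F} (D : Dat F t n) (X : GL2) (hXt : (X : M2).trace = t)
    (hXn : (X : M2).det = n) (G : Sp) (c l1 l2 b : F) (hc : c ≠ 0)
    (g1 : G.1 *ᵥ mk4 1 0 0 0 = mk4 0 0 (-c) 0) (g2 : G.1 *ᵥ mk4 0 1 0 0 = mk4 0 1 l1 0)
    (g3 : G.1 *ᵥ mk4 0 0 1 0 = mk4 c⁻¹ (-l2 * c⁻¹) b (l1 * c⁻¹)) (g4 : G.1 *ᵥ mk4 0 0 0 1 = mk4 0 0 l2 1) :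
    Cov (Dh F X) G := by
  have hg : ∀ x y z w : F, G.1 *ᵥ mk4 x y z w = mk4 (z * c⁻¹) (y - z * l2 * c⁻¹) (-c * x + y * l1 + z * b + w * l2) (z * l1 * c⁻¹ + w) := by
    intro x y z w
    rw [mv, g1, g2, g3, g4, smul_mk4, smul_mk4, smul_mk4, smul_mk4, add_mk4, add_mk4, add_mk4]
    congr 1 <;> ring
  have hcc : c * c⁻¹ = 1 := mul_inv_cancel₀ hc
  by_cases hl : l1 = 0 ∧ l2 = 0
  · obtain ⟨rfl, rfl⟩ := hl
    by_cases hb : b = 2
    · -- transvection
      subst hb
      obtain ⟨τ, hτ⟩ : ∃ τ, τ = n ^ 2 - 1 := ⟨_, rfl⟩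
      obtain ⟨P, hP⟩ := Cfsg.Agent.H22.sp_transitive (mk4 1 0 (-c * τ) (-c)) (mk4 (-1) 0 (-c) 0) (by
        intro h
        have := congrFun h (Sum.inl 0)
        exact one_ne_zero this) (by
        intro h
        have := congrFun h (Sum.inl 0)
        exact neg_ne_zero.mpr one_ne_zero this)
      have hP' : P.1 *ᵥ mk4 1 0 (-c * τ) (-c) = mk4 (-1) 0 (-c) 0 := hP
      have hG : ∀ w, G.1 *ᵥ w = w + (c⁻¹ * om (mk4 (-1) 0 (-c) 0) w) • mk4 (-1) 0 (-c) 0 := by
        intro w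
        rw [eq_mk4 w, hg, om_mk4, smul_mk4, add_mk4]
        congr 1
        · linear_combination (w (Sum.inl 0)) * hcc
        · ring
        · linear_combination (w (Sum.inl 0) * c - w (Sum.inr 0)) * hcc
        · ring
      have hom : ∀ w w', om (G.1 *ᵥ w) w' = om w w' + c⁻¹ * om (mk4 (-1) 0 (-c) 0) w * om (mk4 (-1) 0 (-c) 0) w' := by
        intro w w'
        rw [hG, om_add_left, om_smul_left]
      have hval : ∀ x y z w : F, om (mk4 (-1) 0 (-c) 0) (P.1 *ᵥ mk4 x y z w) = z + c * τ * x + c * y := by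
        intro x y z w
        rw [← hP', om_sp, om_mk4]; ring
      apply cov_of_frame D X hXt hXn G (P.1 *ᵥ mk4 1 0 0 0) (P.1 *ᵥ mk4 0 1 0 0) (P.1 *ᵥ mk4 0 0 1 0) (P.1 *ᵥ mk4 0 0 0 1)
      · rw [om_sp, om_mk4]; ring
      · rw [om_sp, om_mk4]; ring
      · rw [om_sp, om_mk4]; ring
      · rw [om_sp, om_mk4]; ring
      · rw [om_sp, om_mk4]; ring
      · rw [om_sp, om_mk4]; ring
      · right
        rw [hom, hval, hval, om_sp, om_mk4]
        intro h0
        apply one_ne_zero (α := F)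
        linear_combination h0 - hcc
      · rw [hom, hom, hom, hom, hval, hval, hval, hval, om_sp, om_sp, om_sp, om_sp, om_mk4, om_mk4, om_mk4, om_mk4]
        linear_combination τ * hcc + hτ
      · rw [hom, hom, hval, hval, hval, hval, om_sp, om_sp, om_mk4, om_mk4]
        intro h0
        have : (n - 1) ^ 2 = 0 := by linear_combination h0 - τ * hcc - hτ
        exact D.n1 (sub_eq_zero.mp (by simpa using this))
    · apply cov_good h3 D X hXt hXn G (mk4 1 1 0 0) (mk4 (-1) 0 (-c) c)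
      · rw [om_mk4]; ring
      · rw [hg, om_mk4]; ring
      · rw [hg, om_mk4]
        intro h0
        apply hc; linear_combination h0
      · rw [hg, om_mk4]
        intro h0
        have : c * (2 - b) = 0 := by linear_combination h0 - c * hcc
        rcases mul_eq_zero.mp this with h | h
        · exact hc h
        · exact hb (sub_eq_zero.mp h).symm
  · -- option one
    have opt1 : ∀ a : F, a ^ 2 * (2 - b) + 2 * a ≠ 0 → Cov (Dh F X) G := by
      intro a ha
      obtain ⟨m1, m2, hm⟩ := solve_lin hl 1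
      apply cov_good h3 D X hXt hXn G (mk4 1 (a * l2) 0 (-a * l1)) (mk4 (-a * c⁻¹) m1 (-a) m2)
      · rw [om_mk4]; linear_combination a * hm
      · rw [hg, om_mk4]; linear_combination a * hm - a * hcc
      · rw [hg, om_mk4]
        intro h0
        apply hc; linear_combination h0
      · rw [hg, om_mk4]
        intro h0
        apply ha
        have : c⁻¹ * (a ^ 2 * (2 - b) + 2 * a) = 0 := by
          linear_combination h0 - 2 * c⁻¹ * a * hm - a ^ 2 * c⁻¹ * hcc
        exact (mul_eq_zero.mp this).resolve_left (inv_ne_zero hc)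
    by_cases h1 : 4 - b = 0
    · by_cases h4 : (4 : F) = 0
      · -- characteristic two, `b = 0`
        have h2 : (2 : F) = 0 := by
          have : (2 : F) * 2 = 0 := by linear_combination h4
          rcases mul_eq_zero.mp this with h | h <;> exact h
        have hb : b = 0 := by linear_combination h4 - h1
        subst hb
        obtain ⟨θ, hθ0, hθ1⟩ := exists_char2 (F := F) h3
        obtain ⟨k1, k2, hk⟩ := solve_lin hl (-(c * θ))
        have hμ : 1 + θ ≠ 0 := by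
          intro h
          apply hθ1
          linear_combination h - h2
        have hμi : (1 + θ) * (1 + θ)⁻¹ = 1 := mul_inv_cancel₀ hμ
        obtain ⟨ν, hν⟩ : ∃ ν, ν = (1 + θ)⁻¹ := ⟨_, rfl⟩
        rw [← hν] at hμi
        apply cov_good h3 D X hXt hXn G (mk4 1 k1 0 k2) (mk4 (-θ * ν) l2 (-θ * c) (-l1))
        · rw [om_mk4]; linear_combination -hk
        · rw [hg, om_mk4]
          linear_combination -hk + θ * ν * hk - c * θ * hμi
        · rw [hg, om_mk4]
          intro h0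
          apply mul_ne_zero hc hμ
          linear_combination h0 + hk
        · rw [hg, om_mk4]
          intro h0
          apply mul_ne_zero (mul_ne_zero (pow_ne_zero 2 hθ0) hc) (pow_ne_zero 2 (mul_ne_zero hθ0 (show ν ≠ 0 by rw [hν]; exact inv_ne_zero hμ)))
          linear_combination h0 - θ ^ 2 * c * hcc - θ ^ 2 * c * ν ^ 2 * (1 + θ) * h2 + θ ^ 2 * c * ((1 + θ) * ν + 1) * hμi
      · apply opt1 (-1)
        intro h0
        apply h4
        linear_combination h1 - h0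
    · apply opt1 1
      intro h0
      apply h1
      linear_combination h0


/-- the negative -/
def ng (G : Sp) : Sp := ⟨-G.1, SymplecticGroup.neg_mem G.2⟩

theorem ng_mul (G H : Sp) : ng (G * H) = ng G * H := by
  apply Subtype.ext
  show -(G.1 * H.1) = -G.1 * H.1
  rw [neg_mul]

theorem mul_ng (G H : Sp) : G * ng H = ng (G * H) := by
  apply Subtype.ext
  show G.1 * -H.1 = -(G.1 * H.1)
  rw [mul_neg]

/-- elements with a nonisotropic vector, modulo sign -/
theorem cov_nonzero [Fintype F] (h3 : 3 ≤ Fintype.card F) {t n : F} (D : Dat F t n) (X : GL2) (hXt : (X : M2).trace = t)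
    (hXn : (X : M2).det = n) (G : Sp) (v : V F) (hv : om (G.1 *ᵥ v) v ≠ 0) :
    Cov (Dh F X) G ∨ Cov (Dh F X) (ng G) := by
  obtain ⟨c, hc⟩ : ∃ c, c = om (G.1 *ᵥ v) v := ⟨_, rfl⟩
  rw [← hc] at hv
  obtain ⟨P, hP1, hP2⟩ := Cfsg.Agent.H22.sp_transitive_pair (mk4 1 0 0 0) (mk4 0 0 (-c) 0) v (G.1 *ᵥ v)
    (Cfsg.Agent.H22.linInd_pair (Cfsg.Agent.H22.spB 2 F) Cfsg.Agent.H22.spB_isAlt (by
      rw [Cfsg.Agent.H22.spB_apply, ← neg_neg (Cfsg.sympForm 2 F _ _), ← om_eq, om_mk4]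
      intro h0; apply hv; linear_combination h0))
    (Cfsg.Agent.H22.linInd_pair (Cfsg.Agent.H22.spB 2 F) Cfsg.Agent.H22.spB_isAlt (by
      rw [Cfsg.Agent.H22.spB_apply, ← neg_neg (Cfsg.sympForm 2 F _ _), ← om_eq, om_comm, ← hc]
      intro h0; apply hv; linear_combination h0))
    (by rw [← neg_inj, ← om_eq, ← om_eq, om_mk4, om_comm v, ← hc]; ring)
  have hP1' : P.1 *ᵥ mk4 1 0 0 0 = v := hP1
  have hP2' : P.1 *ᵥ mk4 0 0 (-c) 0 = G.1 *ᵥ v := hP2
  obtain ⟨H, hH⟩ : ∃ H : Sp, H = P⁻¹ * G * P := ⟨_, rfl⟩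
  have hPi : (P⁻¹).1 * P.1 = 1 := congrArg Subtype.val (inv_mul_cancel P)
  have g1 : H.1 *ᵥ mk4 1 0 0 0 = mk4 0 0 (-c) 0 := by
    have : H.1 = (P⁻¹).1 * G.1 * P.1 := by rw [hH]; rfl
    rw [this, ← mulVec_mulVec, ← mulVec_mulVec, hP1', ← hP2', mulVec_mulVec, hPi, one_mulVec]
  -- it suffices to treat `H`
  suffices h : Cov (Dh F X) H ∨ Cov (Dh F X) (ng H) by
    rcases h with h | h
    · left; apply Cov.conj P; rw [← hH]; exact h
    · right; apply Cov.conj P
      have : P⁻¹ * ng G * P = ng H := by rw [hH, mul_ng, ← ng_mul]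
      rw [this]; exact h
  clear hP1 hP2 hP1' hP2' hH hPi hc
  obtain ⟨p0, p1, p2, p3, g2⟩ : ∃ p0 p1 p2 p3, H.1 *ᵥ mk4 0 1 0 0 = mk4 p0 p1 p2 p3 := ⟨_, _, _, _, eq_mk4 _⟩
  obtain ⟨q0, q1, q2, q3, g4⟩ : ∃ q0 q1 q2 q3, H.1 *ᵥ mk4 0 0 0 1 = mk4 q0 q1 q2 q3 := ⟨_, _, _, _, eq_mk4 _⟩
  obtain ⟨x0, x1, x2, x3, g3⟩ : ∃ x0 x1 x2 x3, H.1 *ᵥ mk4 0 0 1 0 = mk4 x0 x1 x2 x3 := ⟨_, _, _, _, eq_mk4 _⟩
  have r12 := om_sp H (mk4 1 0 0 0) (mk4 0 1 0 0)
  have r14 := om_sp H (mk4 1 0 0 0) (mk4 0 0 0 1)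
  have r13 := om_sp H (mk4 1 0 0 0) (mk4 0 0 1 0)
  have r24 := om_sp H (mk4 0 1 0 0) (mk4 0 0 0 1)
  have r23 := om_sp H (mk4 0 1 0 0) (mk4 0 0 1 0)
  have r43 := om_sp H (mk4 0 0 0 1) (mk4 0 0 1 0)
  rw [g1, g2, om_mk4, om_mk4] at r12
  rw [g1, g4, om_mk4, om_mk4] at r14
  rw [g1, g3, om_mk4, om_mk4] at r13
  rw [g2, g4, om_mk4, om_mk4] at r24
  rw [g2, g3, om_mk4, om_mk4] at r23
  rw [g4, g3, om_mk4, om_mk4] at r43
  have hp0 : p0 = 0 := by
    have : c * p0 = 0 := by linear_combination r12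
    exact (mul_eq_zero.mp this).resolve_left hv
  have hq0 : q0 = 0 := by
    have : c * q0 = 0 := by linear_combination r14
    exact (mul_eq_zero.mp this).resolve_left hv
  have hx0 : x0 = c⁻¹ := by
    have : c * x0 = 1 := by linear_combination r13
    exact eq_inv_of_mul_eq_one_right this
  subst hp0 hq0 hx0
  have hgood : ∀ h : V F, om (mk4 1 0 0 0) h = 0 → om (mk4 0 0 (-c) 0) h = 0 → om (H.1 *ᵥ h) h ≠ 0 → Cov (Dh F X) H := by
    intro h e1 e2 e3
    refine cov_good h3 D X hXt hXn H (mk4 1 0 0 0) h e1 (by rw [g1]; exact e2) ?_ e3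
    rw [g1, om_mk4]
    intro h0; apply hv; linear_combination h0
  by_cases c1 : p3 = 0
  swap
  · left
    apply hgood (mk4 0 1 0 0)
    · rw [om_mk4]; ring
    · rw [om_mk4]; ring
    · rw [g2, om_mk4]; intro h0; apply c1; linear_combination -h0
  by_cases c2 : q1 = 0
  swap
  · left
    apply hgood (mk4 0 0 0 1)
    · rw [om_mk4]; ring
    · rw [om_mk4]; ring
    · rw [g4, om_mk4]; intro h0; apply c2; linear_combination h0
  by_cases c3 : p1 = q3
  swap
  · left
    apply hgood (mk4 0 1 0 1)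
    · rw [om_mk4]; ring
    · rw [om_mk4]; ring
    · rw [mv, g1, g2, g3, g4, smul_mk4, smul_mk4, smul_mk4, smul_mk4, add_mk4, add_mk4, add_mk4, om_mk4]
      intro h0; apply c3; linear_combination h0 + c1 - c2
  subst c1 c2 c3
  have hp1 : (p1 - 1) * (p1 + 1) = 0 := by linear_combination r24
  rcases mul_eq_zero.mp hp1 with h | h
  · have hp : p1 = 1 := sub_eq_zero.mp h
    subst hp
    left
    apply cov_special h3 D X hXt hXn H c p2 q2 x2 hv g1 g2 _ g4
    rw [g3]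
    congr 1
    · linear_combination -r43
    · linear_combination r23
  · have hp : p1 = -1 := eq_neg_of_add_eq_zero_left h
    subst hp
    right
    have hneg : ∀ a b c d : F, (ng H).1 *ᵥ mk4 a b c d = (-1 : F) • (H.1 *ᵥ mk4 a b c d) := by
      intro a b c d
      have : (ng H).1 = -H.1 := rfl
      rw [this, neg_mulVec, neg_one_smul]
    apply cov_special h3 D X hXt hXn (ng H) (-c) (-p2) (-q2) (-x2) (neg_ne_zero.mpr hv)
    · rw [hneg, g1, smul_mk4]; congr 1 <;> ring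
    · rw [hneg, g2, smul_mk4]; congr 1 <;> ring
    · rw [hneg, g3, smul_mk4]
      congr 1
      · rw [inv_neg]; ring
      · rw [inv_neg]; linear_combination -r43
      · ring
      · rw [inv_neg]; linear_combination r23
    · rw [hneg, g4, smul_mk4]; congr 1 <;> ring

end CfsgLib.H6S4
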