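import Cfsg.Agent.LibH6S4D

/-! `Sp₄(q)`: involutions with vanishing form; the tensor product construction. -/

set_option autoImplicit false

namespace CfsgLib.H6S4

open Matrix CfsgLib.G2B

universe v

variable {F : Type v} [Field F]

local notation "M2" => Matrix (Fin 2) (Fin 2) F
local notation "Sp" => Matrix.symplecticGroup (Fin 2) F
local notation "GL2" => GL (Fin 2) F
local notation "SL2" => Matrix.SpecialLinearGroup (Fin 2) F

theorem exists_om {x : V F} (h : x ≠ 0) : ∃ y, om x y ≠ 0 := by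
  by_contra hcon
  push Not at hcon
  apply h
  apply om_left_zero
  intro y
  rw [om_comm, hcon, neg_zero]

theorem sq_one_of_zero (G : Sp) (h : ∀ v : V F, om (G.1 *ᵥ v) v = 0) (w : V F) : G.1 *ᵥ (G.1 *ᵥ w) = w := by
  have hpol : ∀ v w : V F, om (G.1 *ᵥ v) w = - om (G.1 *ᵥ w) v := by
    intro v w
    have h1 := h (v + w)
    rw [mulVec_add, om_add_left, om_add_right, om_add_right, h, h] at h1
    linear_combination h1
  have hG : G.1 * (G⁻¹).1 = 1 := congrArg Subtype.val (mul_inv_cancel G)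
  have : w - G.1 *ᵥ (G.1 *ᵥ w) = 0 := by
    apply om_left_zero
    intro x
    have hx : x = G.1 *ᵥ ((G⁻¹).1 *ᵥ x) := by rw [mulVec_mulVec, hG, one_mulVec]
    rw [hx]
    generalize (G⁻¹).1 *ᵥ x = v
    rw [sub_eq_add_neg, om_add_right, om_neg_right, om_sp, hpol, om_comm (G.1 *ᵥ w) v]
    ring
  exact (sub_eq_zero.mp this).symm

/-- odd characteristic -/
theorem cov_zero_odd [Finite F] (h2 : (2 : F) ≠ 0) {t : F} (D : Dat F t (-1)) (X : GL2) (hXt : (X : M2).trace = t)
    (hXn : (X : M2).det = -1) (G : Sp) (h : ∀ v : V F, om (G.1 *ᵥ v) v = 0)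
    (hp : ∃ v, G.1 *ᵥ v ≠ v) (hm : ∃ v, G.1 *ᵥ v ≠ -v) : Cov (Dh F X) G := by
  have hsq := sq_one_of_zero G h
  have key : ∀ (ε : F), ε * ε = 1 → (∃ v, G.1 *ᵥ v ≠ (-ε) • v) →
      ∃ e f : V F, G.1 *ᵥ e = ε • e ∧ G.1 *ᵥ f = ε • f ∧ om e f = 1 := by
    intro ε hε ⟨v, hv⟩
    have hfix : ∀ w, G.1 *ᵥ (w + ε • G.1 *ᵥ w) = ε • (w + ε • G.1 *ᵥ w) := by
      intro w
      rw [mulVec_add, mulVec_smul, hsq, smul_add, smul_smul, hε, one_smul, add_comm]
    have he : v + ε • G.1 *ᵥ v ≠ 0 := by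
      intro h0
      apply hv
      have h1 : ε • (v + ε • G.1 *ᵥ v) = 0 := by rw [h0, smul_zero]
      rw [smul_add, smul_smul, hε, one_smul] at h1
      rw [neg_smul]
      exact eq_neg_of_add_eq_zero_right h1
    obtain ⟨w, hw⟩ := exists_om he
    obtain ⟨e, hee⟩ : ∃ e, e = v + ε • G.1 *ᵥ v := ⟨_, rfl⟩
    have hefix : G.1 *ᵥ e = ε • e := by rw [hee]; exact hfix v
    rw [← hee] at hw
    have hom : om e (w + ε • G.1 *ᵥ w) = 2 * om e w := by
      rw [om_add_right, om_smul_right]
      have : om e w = ε * om e (G.1 *ᵥ w) := by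
        rw [← om_sp G e w, hefix, om_smul_left]
      rw [← this]; ring
    refine ⟨e, (2 * om e w)⁻¹ • (w + ε • G.1 *ᵥ w), hefix, ?_, ?_⟩
    · rw [mulVec_smul, hfix, smul_comm]
    · rw [om_smul_right, hom, inv_mul_cancel₀ (mul_ne_zero h2 hw)]
  obtain ⟨e1, f1, ge1, gf1, h11⟩ := key 1 (by ring) (by
    obtain ⟨v, hv⟩ := hm
    exact ⟨v, by rwa [neg_one_smul]⟩)
  obtain ⟨e2, f2, ge2, gf2, h22⟩ := key (-1) (by ring) (by
    obtain ⟨v, hv⟩ := hp
    exact ⟨v, by rwa [neg_neg, one_smul]⟩)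
  have hperp : ∀ x y : V F, G.1 *ᵥ x = (1 : F) • x → G.1 *ᵥ y = (-1 : F) • y → om x y = 0 := by
    intro x y hx hy
    have := om_sp G x y
    rw [hx, hy, om_smul_left, om_smul_right] at this
    have h3 : 2 * om x y = 0 := by linear_combination -this
    exact (mul_eq_zero.mp h3).resolve_left h2
  have z1 := hperp e1 e2 ge1 ge2
  have z2 := hperp e1 f2 ge1 gf2
  have z3 := hperp f1 e2 gf1 ge2
  have z4 := hperp f1 f2 gf1 gf2
  have z1' : om e2 e1 = 0 := by rw [om_comm, z1, neg_zero]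
  have z2' : om f2 e1 = 0 := by rw [om_comm, z2, neg_zero]
  have z3' : om e2 f1 = 0 := by rw [om_comm, z3, neg_zero]
  have z4' : om f2 f1 = 0 := by rw [om_comm, z4, neg_zero]
  have h11' : om f1 e1 = -1 := by rw [om_comm, h11]
  have h22' : om f2 e2 = -1 := by rw [om_comm, h22]
  obtain ⟨r, hr⟩ : ∃ r : F, 2 * r = 1 := ⟨2⁻¹, mul_inv_cancel₀ h2⟩
  apply cov_of_frame D X hXt hXn G (e1 + e2) (f1 + (-1 : F) • f2) (r • (f1 + f2 + e1 + e2)) (r • (e2 + (-1 : F) • e1 + f1 + (-1 : F) • f2))
  · simp only [om_add_left, om_add_right, om_smul_left, om_smul_right, om_self, z1, z2, z3, z4, z1', z2', z3', z4', h11, h22, h11', h22']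
    ring
  · simp only [om_add_left, om_add_right, om_smul_left, om_smul_right, om_self, z1, z2, z3, z4, z1', z2', z3', z4', h11, h22, h11', h22']
    ring
  · simp only [om_add_left, om_add_right, om_smul_left, om_smul_right, om_self, z1, z2, z3, z4, z1', z2', z3', z4', h11, h22, h11', h22']
    linear_combination hr
  · simp only [om_add_left, om_add_right, om_smul_left, om_smul_right, om_self, z1, z2, z3, z4, z1', z2', z3', z4', h11, h22, h11', h22']
    linear_combination hr
  · simp only [om_add_left, om_add_right, om_smul_left, om_smul_right, om_self, z1, z2, z3, z4, z1', z2', z3', z4', h11, h22, h11', h22']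
    ring
  · simp only [om_add_left, om_add_right, om_smul_left, om_smul_right, om_self, z1, z2, z3, z4, z1', z2', z3', z4', h11, h22, h11', h22']
    ring
  · left
    simp only [mulVec_add, mulVec_smul, ge1, ge2, gf1, gf2, om_add_left, om_add_right, om_smul_left, om_smul_right, om_self, z1, z2, z3, z4, z1', z2', z3', z4', h11, h22, h11', h22']
    intro h0
    apply one_ne_zero (α := F)
    linear_combination h0 - hr
  · simp only [mulVec_add, mulVec_smul, ge1, ge2, gf1, gf2, om_add_left, om_add_right, om_smul_left, om_smul_right, om_self, z1, z2, z3, z4, z1', z2', z3', z4', h11, h22, h11', h22']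
    linear_combination (2 * r + 1) * hr
  · simp only [mulVec_add, mulVec_smul, ge1, ge2, gf1, gf2, om_add_left, om_add_right, om_smul_left, om_smul_right, om_self, z1, z2, z3, z4, z1', z2', z3', z4', h11, h22, h11', h22']
    intro h0
    apply h2
    linear_combination h0

end CfsgLib.H6S4
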