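import Cfsg.Agent.LibH6S4E

/-! `Sp₄(q)`, `q` even: the tensor product construction and the final theorem. -/

set_option autoImplicit false

namespace CfsgLib.H6S4

open Matrix CfsgLib.G2B

universe v

variable {F : Type v} [Field F]

local notation "M2" => Matrix (Fin 2) (Fin 2) F
local notation "Sp" => Matrix.symplecticGroup (Fin 2) F
local notation "GL2" => GL (Fin 2) F
local notation "SL2" => Matrix.SpecialLinearGroup (Fin 2) F

/-- the swap matrix -/
def sw (F : Type v) [Field F] : Matrix (Fin 2) (Fin 2) F := !![0, 1; 1, 0]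

theorem sw_sq : (sw F) * (sw F) = 1 := by
  unfold sw
  apply ext2 <;> simp [Matrix.mul_apply, Fin.sum_univ_two]

theorem sw_t : (sw F)ᵀ = sw F := by
  unfold sw
  apply ext2 <;> simp

theorem sw_conj (Z : M2) : sw F * Z * sw F = !![Z 1 1, Z 1 0; Z 0 1, Z 0 0] := by
  obtain ⟨a, b, c, d, h⟩ : ∃ a b c d : F, Z = !![a, b; c, d] := ⟨_, _, _, _, Matrix.eta_fin_two Z⟩
  subst h
  unfold sw
  rw [Matrix.mul_fin_two, Matrix.mul_fin_two]
  simp

/-- the tensor product -/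
def rhoM (y z : M2) : Matrix (Fin 2 ⊕ Fin 2) (Fin 2 ⊕ Fin 2) F :=
  fromBlocks (y 0 0 • z) (y 0 1 • (z * sw F)) (y 1 0 • (sw F * z)) (y 1 1 • (sw F * z * sw F))

theorem rhoM_mul (y z y' z' : M2) : rhoM y z * rhoM y' z' = rhoM (y * y') (z * z') := by
  have e : ∀ (a b c d : F) (Y Z Y' Z' : M2), Y * Z = Y' * Z' → (a • Y) * (b • Z) + (c • Y') * (d • Z') = (a * b + c * d) • (Y * Z) := by
    intro a b c d Y Z Y' Z' h
    rw [smul_mul_smul_comm, smul_mul_smul_comm, h, ← add_smul]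
  unfold rhoM
  rw [fromBlocks_multiply]
  have hs := sw_sq (F := F)
  congr 1
  · rw [e _ _ _ _ _ _ _ _ (show z * z' = z * sw F * (sw F * z') by
      rw [mul_assoc, ← mul_assoc (sw F) (sw F), hs, one_mul]), Matrix.mul_apply, Fin.sum_univ_two]
  · rw [e _ _ _ _ _ _ _ _ (show z * (z' * sw F) = z * sw F * (sw F * z' * sw F) by
      rw [mul_assoc z (sw F), ← mul_assoc (sw F) (sw F * z'), ← mul_assoc (sw F) (sw F) z', hs, one_mul]), Matrix.mul_apply, Fin.sum_univ_two, mul_assoc]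
  · rw [e _ _ _ _ _ _ _ _ (show sw F * z * z' = sw F * z * sw F * (sw F * z') by
      rw [mul_assoc (sw F * z) (sw F), ← mul_assoc (sw F) (sw F) z', hs, one_mul]), Matrix.mul_apply, Fin.sum_univ_two, mul_assoc]
  · rw [e _ _ _ _ _ _ _ _ (show sw F * z * (z' * sw F) = sw F * z * sw F * (sw F * z' * sw F) by
      rw [mul_assoc (sw F * z) (sw F), ← mul_assoc (sw F) (sw F * z') (sw F), ← mul_assoc (sw F) (sw F) z', hs, one_mul]), Matrix.mul_apply, Fin.sum_univ_two]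
    simp only [mul_assoc]

theorem rhoM_mem (h2 : (2 : F) = 0) (y z : M2) (hy : y.det = 1) (hz : z.det = 1) : rhoM y z ∈ Sp := by
  have hs := sw_sq (F := F)
  have hst := sw_t (F := F)
  have hzs : z * sw F * zᵀ = sw F := by
    rw [det_fin_two] at hz
    unfold sw
    apply ext2 <;> simp [Matrix.mul_apply, Fin.sum_univ_two]
    · linear_combination (z 0 0 * z 0 1) * h2
    · linear_combination hz + z 0 1 * z 1 0 * h2
    · linear_combination hz + z 0 1 * z 1 0 * h2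
    · linear_combination (z 1 0 * z 1 1) * h2
  unfold rhoM
  apply mem_blocks
  · rw [transpose_smul, transpose_mul, hst, transpose_smul, smul_mul_smul_comm, smul_mul_smul_comm, mul_comm (y 0 0), mul_assoc z]
  · rw [transpose_smul, transpose_mul, transpose_mul, hst, transpose_smul, transpose_mul, hst, smul_mul_smul_comm, smul_mul_smul_comm,
      mul_comm (y 1 0)]
    simp only [mul_assoc]
  · rw [transpose_smul, transpose_mul, transpose_mul, hst, transpose_smul, transpose_mul, hst, smul_mul_smul_comm, smul_mul_smul_comm]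
    have e1 : z * (sw F * (zᵀ * sw F)) = 1 := by
      rw [← mul_assoc, ← mul_assoc, hzs, hs]
    have e2 : z * sw F * (zᵀ * sw F) = 1 := by
      rw [← mul_assoc, hzs, hs]
    rw [e1, e2, ← sub_smul]
    rw [det_fin_two] at hy
    rw [show y 0 0 * y 1 1 - y 0 1 * y 1 0 = 1 from hy, one_smul]

/-- the homomorphism -/
def rhoH (F : Type v) [Field F] (h2 : (2 : F) = 0) :
    Matrix.SpecialLinearGroup (Fin 2) F × Matrix.SpecialLinearGroup (Fin 2) F →* Matrix.symplecticGroup (Fin 2) F where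
  toFun p := ⟨rhoM p.1.1 p.2.1, rhoM_mem h2 _ _ p.1.2 p.2.2⟩
  map_one' := by
    apply Subtype.ext
    show rhoM (1 : Matrix (Fin 2) (Fin 2) F) 1 = 1
    unfold rhoM
    simp [sw_sq]
  map_mul' p q := by
    apply Subtype.ext
    exact (rhoM_mul _ _ _ _).symm

theorem lo_sw : (sw F)ᵀ = sw F := sw_t

/-- the involution is a product of two conjugates -/
theorem cov_sw [Fintype F] [CharP F 2] (m : F) (m0 : m ≠ 0) (m1 : m ≠ 1) {t : F} (D : Dat F t (m ^ 2)) (X : GL2) (hXt : (X : M2).trace = t)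
    (hXn : (X : M2).det = m ^ 2) : Cov (Dh F X) (Lo (sw F) sw_t) := by
  have h2 : (2 : F) = 0 := by exact_mod_cast CharP.cast_eq_zero F 2
  have hmi : m⁻¹ * m = 1 := inv_mul_cancel₀ m0
  obtain ⟨z, hz⟩ : ∃ z : SL2, z.1 = m⁻¹ • (X : M2) := ⟨⟨m⁻¹ • (X : M2), by
    rw [det_smul, hXn, Fintype.card_fin, ← mul_pow, hmi, one_pow]⟩, rfl⟩
  have hXz : (X : M2) = m • z.1 := by rw [hz, smul_smul, mul_inv_cancel₀ m0, one_smul]
  obtain ⟨y, hy⟩ : ∃ y : SL2, y.1 = !![m, 0; 0, m⁻¹] := ⟨⟨!![m, 0; 0, m⁻¹], by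
    rw [det_fin_two_of, mul_inv_cancel₀ m0]; ring⟩, rfl⟩
  have hx : Dh F X = rhoH F h2 (y, z) := by
    apply Subtype.ext
    show fromBlocks (X : M2) 0 0 ((X⁻¹ : GL2) : M2)ᵀ = rhoM y.1 z.1
    unfold rhoM
    rw [hy]
    simp only [of_apply, cons_val', cons_val_zero, cons_val_one, cons_val_fin_one, zero_smul]
    rw [← hXz]
    congr 1
    -- the inverse transpose
    have h3 : (X : M2) * (m⁻¹ • (z⁻¹).1) = 1 := by
      rw [hXz, smul_mul_smul_comm, mul_inv_cancel₀ m0, one_smul]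
      exact congrArg Subtype.val (mul_inv_cancel z)
    have h4 : ((X⁻¹ : GL2) : M2) = m⁻¹ • (z⁻¹).1 := by
      have h5 : ((X⁻¹ : GL2) : M2) * ((X : M2) * (m⁻¹ • (z⁻¹).1)) = ((X⁻¹ : GL2) : M2) := by rw [h3, mul_one]
      rw [← mul_assoc, ← Units.val_mul, inv_mul_cancel, Units.val_one, one_mul] at h5
      exact h5.symm
    rw [h4, transpose_smul]
    congr 1
    have h5 : (z⁻¹).1 = !![z.1 1 1, -z.1 0 1; -z.1 1 0, z.1 0 0] := CfsgLib.H6P2.inv_coe z
    rw [h5, sw_conj]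
    apply ext2 <;> simp
    · linear_combination (-z.1 1 0) * h2
    · linear_combination (-z.1 0 1) * h2
  -- the two factors
  have hm1 : m - m⁻¹ ≠ 0 := by
    intro h
    apply m1
    have h5 : m ^ 2 = 1 := by
      have : m * (m - m⁻¹) = 0 := by rw [h, mul_zero]
      linear_combination this + hmi
    have h6 : (m - 1) ^ 2 = 0 := by linear_combination h5 + (1 - m) * h2
    exact sub_eq_zero.mp (by simpa using h6)
  obtain ⟨r, hr⟩ : ∃ r : F, r * (m - m⁻¹) = m := ⟨m / (m - m⁻¹), div_mul_cancel₀ _ hm1⟩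
  obtain ⟨p1, hp1⟩ : ∃ p : SL2, p.1 = !![1, 0; r, 1] := ⟨⟨!![1, 0; r, 1], by rw [det_fin_two_of]; ring⟩, rfl⟩
  obtain ⟨p2, hp2⟩ : ∃ p : SL2, p.1 = !![0, 1; 1, 0] := ⟨⟨!![0, 1; 1, 0], by
    rw [det_fin_two_of]; linear_combination -h2⟩, rfl⟩
  obtain ⟨y1, hy1⟩ : ∃ p : SL2, p.1 = !![m, 0; m, m⁻¹] := ⟨⟨!![m, 0; m, m⁻¹], by
    rw [det_fin_two_of, mul_inv_cancel₀ m0]; ring⟩, rfl⟩
  obtain ⟨y2, hy2⟩ : ∃ p : SL2, p.1 = !![m⁻¹, 0; 0, m] := ⟨⟨!![m⁻¹, 0; 0, m], by
    rw [det_fin_two_of, hmi]; ring⟩, rfl⟩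
  have hc1 : p1 * y * p1⁻¹ = y1 := by
    rw [mul_inv_eq_iff_eq_mul]
    apply Subtype.ext
    show p1.1 * y.1 = y1.1 * p1.1
    rw [hp1, hy, hy1]
    apply ext2 <;> simp [Matrix.mul_apply, Fin.sum_univ_two]
    linear_combination hr
  have hc2 : p2 * y * p2⁻¹ = y2 := by
    rw [mul_inv_eq_iff_eq_mul]
    apply Subtype.ext
    show p2.1 * y.1 = y2.1 * p2.1
    rw [hp2, hy, hy2]
    apply ext2 <;> simp [Matrix.mul_apply, Fin.sum_univ_two]
  have hzn : ¬ IsSc (z : M2) := by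
    intro h
    apply D.nsc hXt hXn
    have e : (X : M2) = m • (z : M2) := hXz
    rw [e]
    refine ⟨?_, ?_, ?_⟩
    · rw [Matrix.smul_apply, h.1, smul_zero]
    · rw [Matrix.smul_apply, h.2.1, smul_zero]
    · rw [Matrix.smul_apply, Matrix.smul_apply, h.2.2]
  have hzi : ((z⁻¹ : SL2) : M2) = !![z.1 1 1, -z.1 0 1; -z.1 1 0, z.1 0 0] := CfsgLib.H6P2.inv_coe z
  have hc3 : IsConj z z⁻¹ := by
    apply sl_conj hzn
    · intro h
      apply hzn
      rw [hzi] at h
      refine ⟨?_, ?_, ?_⟩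
      · have := h.1; simpa using this
      · have := h.2.1; simpa using this
      · have := h.2.2
        simp at this
        exact this.symm
    · rw [hzi, trace_fin_two, trace_fin_two_of]
      show z.1 0 0 + z.1 1 1 = _
      ring
    · intro δ _
      exact form_char_two _ _
  obtain ⟨k, hk⟩ := isConj_iff.mp hc3
  refine ⟨rhoH F h2 (p1, 1), rhoH F h2 (p2, k), ?_⟩
  rw [hx, ← map_mul, ← map_inv, ← map_mul, ← map_mul, ← map_inv, ← map_mul, ← map_mul]
  have e1 : ((p1, (1 : SL2)) * (y, z) * (p1, (1 : SL2))⁻¹) = (y1, z) := by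
    rw [Prod.inv_mk, Prod.mk_mul_mk, Prod.mk_mul_mk, hc1, one_mul, inv_one, mul_one]
  have e2 : ((p2, k) * (y, z) * (p2, k)⁻¹) = (y2, z⁻¹) := by
    rw [Prod.inv_mk, Prod.mk_mul_mk, Prod.mk_mul_mk, hc2, hk]
  rw [e1, e2, Prod.mk_mul_mk, mul_inv_cancel]
  apply Subtype.ext
  show fromBlocks 1 0 (sw F) 1 = rhoM (y1 * y2).1 1
  have : (y1 * y2).1 = !![1, 0; 1, 1] := by
    show y1.1 * y2.1 = _
    rw [hy1, hy2]
    apply ext2 <;> simp [Matrix.mul_apply, Fin.sum_univ_two, m0]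
  rw [this]
  unfold rhoM
  simp [sw_sq]

/-- involutions with zero form are conjugate -/
theorem cov_zero_even [Fintype F] [CharP F 2] (m : F) (m0 : m ≠ 0) (m1 : m ≠ 1) {t : F} (D : Dat F t (m ^ 2)) (X : GL2) (hXt : (X : M2).trace = t)
    (hXn : (X : M2).det = m ^ 2) (G : Sp) (h : ∀ v : V F, om (G.1 *ᵥ v) v = 0)
    (hp : ∃ v, G.1 *ᵥ v ≠ v) : Cov (Dh F X) G := by
  have h2 : (2 : F) = 0 := by exact_mod_cast CharP.cast_eq_zero F 2
  have hsq := sq_one_of_zero G h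
  obtain ⟨v, hv⟩ := hp
  obtain ⟨a, ha⟩ : ∃ a, a = G.1 *ᵥ v + v := ⟨_, rfl⟩
  have neg_eq : ∀ x : V F, -x = x := by
    intro x
    have : (2 : F) • x = 0 := by rw [h2, zero_smul]
    rw [two_smul] at this
    exact (eq_neg_of_add_eq_zero_left this).symm
  have add_self : ∀ x : V F, x + x = 0 := by
    intro x
    conv_lhs => rw [← neg_eq x]
    rw [neg_eq x]
    have : (2 : F) • x = 0 := by rw [h2, zero_smul]
    rwa [two_smul] at this
  have ha0 : a ≠ 0 := by
    intro h0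
    apply hv
    rw [ha] at h0
    rw [eq_neg_of_add_eq_zero_left h0, neg_eq]
  obtain ⟨w', hw'⟩ := exists_om ha0
  obtain ⟨w0, hw0⟩ : ∃ w0, w0 = (om a w')⁻¹ • w' := ⟨_, rfl⟩
  have haw0 : om a w0 = 1 := by rw [hw0, om_smul_right, inv_mul_cancel₀ hw']
  obtain ⟨b, hb⟩ : ∃ b, b = G.1 *ᵥ w0 + w0 := ⟨_, rfl⟩
  have hself : ∀ x y : V F, om (G.1 *ᵥ x + x) y = om x (G.1 *ᵥ y + y) := by
    intro x y
    rw [om_add_left, om_add_right]
    have : om (G.1 *ᵥ x) y = om x (G.1 *ᵥ y) := by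
      rw [← om_sp G x (G.1 *ᵥ y), hsq]
    rw [this]
  have hNN : ∀ x : V F, G.1 *ᵥ (G.1 *ᵥ x + x) = G.1 *ᵥ x + x := by
    intro x; rw [mulVec_add, hsq, add_comm]
  have hN0 : ∀ x : V F, om (G.1 *ᵥ x + x) x = 0 := by
    intro x; rw [om_add_left, h, om_self, add_zero]
  have hab : om a b = 0 := by
    rw [ha, hb, hself, hNN, add_self]
    unfold om; simp
  have hbv : om b v = -1 := by
    rw [hb, hself, ← ha, om_comm, haw0]
  have hbw : om b w0 = 0 := by rw [hb]; exact hN0 w0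
  have hav : om a v = 0 := by rw [ha]; exact hN0 v
  -- adjust
  obtain ⟨w, hw⟩ : ∃ w, w = w0 + (om v w0) • b := ⟨_, rfl⟩
  have hvb : om v b = 1 := by rw [om_comm, hbv, neg_neg]
  have hvw : om v w = 0 := by
    rw [hw, om_add_right, om_smul_right, hvb]
    linear_combination om v w0 * h2
  have haw : om a w = 1 := by rw [hw, om_add_right, om_smul_right, haw0, hab, mul_zero, add_zero]
  have hbw' : om b w = 0 := by rw [hw, om_add_right, om_smul_right, hbw, om_self, mul_zero, add_zero]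
  have gv : G.1 *ᵥ v = v + a := by
    rw [ha, add_comm (G.1 *ᵥ v), ← add_assoc, add_self, zero_add]
  have gb : G.1 *ᵥ b = b := by rw [hb]; exact hNN w0
  have ga : G.1 *ᵥ a = a := by rw [ha]; exact hNN v
  have gw : G.1 *ᵥ w = w + b := by
    rw [hw, mulVec_add, mulVec_smul, gb]
    have : G.1 *ᵥ w0 = w0 + b := by rw [hb, add_comm (G.1 *ᵥ w0), ← add_assoc, add_self, zero_add]
    rw [this]; abel
  obtain ⟨P, p1, p2, p3, p4⟩ := frame v w b a hvw (by rw [om_comm, hab, neg_zero]) hvb (by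
    rw [om_comm, haw]; linear_combination -h2) (by rw [om_comm, hav, neg_zero]) (by rw [om_comm, hbw', neg_zero])
  apply Cov.conj P
  have hPi : (P⁻¹).1 * P.1 = 1 := congrArg Subtype.val (inv_mul_cancel P)
  have hH : P⁻¹ * G * P = Lo (sw F) sw_t := by
    have key : ∀ x y : V F, G.1 *ᵥ (P.1 *ᵥ x) = P.1 *ᵥ y → (P⁻¹ * G * P).1 *ᵥ x = y := by
      intro x y hxy
      have : (P⁻¹ * G * P).1 = (P⁻¹).1 * G.1 * P.1 := rfl
      rw [this, ← mulVec_mulVec, ← mulVec_mulVec, hxy, mulVec_mulVec, hPi, one_mulVec]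
    have lo : ∀ x0 x1 x2 x3 : F, (Lo (sw F) sw_t).1 *ᵥ mk4 x0 x1 x2 x3 = mk4 x0 x1 (x2 + x1) (x3 + x0) := by
      intro x0 x1 x2 x3
      show fromBlocks 1 0 (sw F) 1 *ᵥ mk4 x0 x1 x2 x3 = _
      funext i
      rcases i with i | i <;> fin_cases i <;>
        simp [Matrix.mulVec, dotProduct, Fintype.sum_sum_type, mk4, sw, fromBlocks, Matrix.one_apply, add_comm]
    apply Subtype.ext
    apply Cfsg.Agent.H22.mat_ext_mulVec
    intro x
    rw [eq_mk4 x, mv, mv (Lo (sw F) sw_t).1]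
    congr 1
    · congr 1
      · congr 1
        · congr 1
          rw [lo]
          apply key
          rw [p1, gv, mk4_eq, mulVec_add, mulVec_add, mulVec_add, mulVec_smul, mulVec_smul, mulVec_smul, mulVec_smul, p1, p2, p3, p4]
          simp
        · congr 1
          rw [lo]
          apply key
          rw [p2, gw, mk4_eq, mulVec_add, mulVec_add, mulVec_add, mulVec_smul, mulVec_smul, mulVec_smul, mulVec_smul, p1, p2, p3, p4]
          simp
      · congr 1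
        rw [lo]
        apply key
        rw [p3, gb, mk4_eq, mulVec_add, mulVec_add, mulVec_add, mulVec_smul, mulVec_smul, mulVec_smul, mulVec_smul, p1, p2, p3, p4]
        simp
    · congr 1
      rw [lo]
      apply key
      rw [p4, ga, mk4_eq, mulVec_add, mulVec_add, mulVec_add, mulVec_smul, mulVec_smul, mulVec_smul, mulVec_smul, p1, p2, p3, p4]
      simp
  rw [hH]
  exact cov_sw m m0 m1 D X hXt hXn

end CfsgLib.H6S4
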