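import Cfsg.Agent.LibH6S4F

/-! `PSp₄(q)`: every nonidentity element is a product of two conjugates of a semisimple element. -/

set_option autoImplicit false

namespace CfsgLib.H6S4

open Matrix CfsgLib.G2B

universe v

variable {F : Type v} [Field F]

local notation "M2" => Matrix (Fin 2) (Fin 2) F
local notation "Sp" => Matrix.symplecticGroup (Fin 2) F
local notation "GL2" => GL (Fin 2) F

theorem order_coprime [Finite F] (p : ℕ) [Fact p.Prime] [CharP F p] (X : GL2) (t n : F) (hXt : (X : M2).trace = t) (hXn : (X : M2).det = n)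
    (hir : ∀ a : F, a ^ 2 - t * a + n ≠ 0) : ¬ p ∣ orderOf X := by
  have hp : p.Prime := Fact.out
  intro hd
  have hpos : 0 < orderOf X := orderOf_pos X
  have hU := orderOf_pow_of_dvd hp.pos.ne' hd |> fun h => h
  obtain ⟨k, hk⟩ := hd
  have hk0 : k ≠ 0 := by rintro rfl; omega
  have hord : orderOf (X ^ k) = p := by
    rw [orderOf_pow_of_dvd hk0 (by rw [hk]; exact Dvd.intro_left p rfl), hk, Nat.mul_div_cancel _ (Nat.pos_of_ne_zero hk0)]
  have hpow : ∀ j : ℕ, ∃ a b : F, ((X ^ j : GL2) : M2) = a • 1 + b • (X : M2) := by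
    intro j
    induction j with
    | zero => exact ⟨1, 0, by simp⟩
    | succ j ih =>
      obtain ⟨a, b, h⟩ := ih
      refine ⟨-b * n, a + b * t, ?_⟩
      rw [pow_succ, Units.val_mul, h, add_mul, smul_mul_assoc, smul_mul_assoc, one_mul]
      have h1 := ch (X : M2) t n hXt hXn
      rw [mul_sub, mul_smul_comm, mul_one] at h1
      have h2 : (X : M2) * (X : M2) = t • (X : M2) - n • 1 := by rw [← h1]; abel
      rw [h2, smul_sub, smul_smul, smul_smul, add_smul, neg_mul, neg_smul]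
      abel
  obtain ⟨a, b, hab⟩ := hpow k
  have hpw : ((X ^ k : GL2) : M2) ^ p = 1 := by
    rw [← Units.val_pow_eq_pow_val, ← hord, pow_orderOf_eq_one]; rfl
  have hnil : (((X ^ k : GL2) : M2) - 1) ^ p = 0 := by
    rw [sub_pow_char_of_commute _ (Commute.one_right _), hpw, one_pow, sub_self]
  have hdet : (((X ^ k : GL2) : M2) - 1).det = 0 := by
    have := congrArg Matrix.det hnil
    rw [det_pow, det_zero] at this
    exact pow_eq_zero_iff hp.ne_zero |>.mp this
  have hdet2 : (a - 1) ^ 2 + (a - 1) * b * t + b ^ 2 * n = 0 := by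
    rw [hab, det_fin_two] at hdet
    rw [trace_fin_two] at hXt
    rw [det_fin_two] at hXn
    simp at hdet
    rw [← hXt, ← hXn]
    linear_combination hdet
  have hb : b = 0 := by
    by_contra hb
    apply hir (-(a - 1) / b)
    field_simp
    linear_combination hdet2
  subst hb
  have ha : a = 1 := by
    have : (a - 1) ^ 2 = 0 := by linear_combination hdet2
    exact sub_eq_zero.mp (by simpa using this)
  subst ha
  have : X ^ k = 1 := by
    apply Units.ext
    rw [hab]; simp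
  rw [this, orderOf_one] at hord
  exact hp.one_lt.ne hord

theorem psp4 [Fintype F] (p : ℕ) [Fact p.Prime] [CharP F p] (h3 : 3 ≤ Fintype.card F) :
    ∃ x : Cfsg.PSp 2 F, ¬ p ∣ orderOf x ∧ ∀ g : Cfsg.PSp 2 F, g ≠ 1 → ∃ u v : Cfsg.PSp 2 F, g = (u * x * u⁻¹) * (v * x * v⁻¹) := by
  classical
  -- it suffices to find a good element upstairs
  have hneg1 : ng (1 : Sp) ∈ Subgroup.center Sp := by
    rw [Subgroup.mem_center_iff]
    intro g
    rw [mul_ng, ← ng_mul, mul_one, one_mul]
  suffices h : ∃ (t n : F) (X : GL2), (X : M2).trace = t ∧ (X : M2).det = n ∧ (∀ a : F, a ^ 2 - t * a + n ≠ 0) ∧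
      ∀ G : Sp, G ∉ Subgroup.center Sp → Cov (Dh F X) G ∨ Cov (Dh F X) (ng G) by
    obtain ⟨t, n, X, hXt, hXn, hir, h⟩ := h
    refine ⟨QuotientGroup.mk (Dh F X), ?_, ?_⟩
    · intro hd
      apply order_coprime p X t n hXt hXn hir
      exact hd.trans (orderOf_map_dvd ((QuotientGroup.mk' (Subgroup.center Sp)).comp (Dh F)) X)
    · intro g hg
      obtain ⟨G, rfl⟩ := QuotientGroup.mk_surjective g
      have hGc : G ∉ Subgroup.center Sp := fun hc => hg ((QuotientGroup.eq_one_iff G).mpr hc)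
      have fin : ∀ H : Sp, (QuotientGroup.mk G : Cfsg.PSp 2 F) = QuotientGroup.mk H → Cov (Dh F X) H →
          ∃ u v : Cfsg.PSp 2 F, (QuotientGroup.mk G : Cfsg.PSp 2 F) = (u * QuotientGroup.mk (Dh F X) * u⁻¹) * (v * QuotientGroup.mk (Dh F X) * v⁻¹) := by
        rintro H hH ⟨u, v, huv⟩
        refine ⟨QuotientGroup.mk u, QuotientGroup.mk v, ?_⟩
        rw [hH, huv]; rfl
      rcases h G hGc with h1 | h1
      · exact fin G rfl h1
      · refine fin (ng G) ?_ h1
        rw [QuotientGroup.eq, mul_ng, inv_mul_cancel]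
        exact hneg1
  have hne : ∀ G : Sp, G ∉ Subgroup.center Sp → (∃ v, G.1 *ᵥ v ≠ v) ∧ (∃ v, G.1 *ᵥ v ≠ -v) := by
    intro G hG
    constructor
    · by_contra hcon
      push Not at hcon
      apply hG
      have : G = 1 := by
        apply Subtype.ext
        apply Cfsg.Agent.H22.mat_ext_mulVec
        intro v
        rw [hcon]
        show v = (1 : Matrix (Fin 2 ⊕ Fin 2) (Fin 2 ⊕ Fin 2) F) *ᵥ v
        rw [one_mulVec]
      rw [this]; exact Subgroup.one_mem _
    · by_contra hcon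
      push Not at hcon
      apply hG
      have : G = ng 1 := by
        apply Subtype.ext
        apply Cfsg.Agent.H22.mat_ext_mulVec
        intro v
        rw [hcon]
        show -v = (-(1 : Matrix (Fin 2 ⊕ Fin 2) (Fin 2 ⊕ Fin 2) F)) *ᵥ v
        rw [neg_mulVec, one_mulVec]
      rw [this]; exact hneg1
  rcases CfsgLib.H6P2.even_or_odd (F := F) with ⟨_, h2⟩ | ⟨_, h2, hodd⟩
  · haveI : CharP F 2 := (CharP.charP_iff_prime_eq_zero Nat.prime_two).mpr (by exact_mod_cast h2)
    obtain ⟨m, m0, m1⟩ := exists_char2 (F := F) h3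
    have n1 : m ^ 2 ≠ 1 := by
      intro h
      apply m1
      have : (m - 1) ^ 2 = 0 := by linear_combination h + (1 - m) * h2
      exact sub_eq_zero.mp (by simpa using this)
    obtain ⟨t, D⟩ := dat_even (m ^ 2) (pow_ne_zero 2 m0) n1
    have hd : (!![0, -m ^ 2; 1, t] : M2).det = m ^ 2 := by rw [det_fin_two_of]; ring
    obtain ⟨X, hX⟩ : ∃ X : GL2, (X : M2) = !![0, -m ^ 2; 1, t] := ⟨mkGL _ (by rw [hd]; exact pow_ne_zero 2 m0), rfl⟩
    have hXt : (X : M2).trace = t := by rw [hX, trace_fin_two_of]; ring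
    have hXn : (X : M2).det = m ^ 2 := by rw [hX, hd]
    refine ⟨t, m ^ 2, X, hXt, hXn, D.ir, ?_⟩
    intro G hG
    by_cases hQ : ∀ v : V F, om (G.1 *ᵥ v) v = 0
    · left
      exact cov_zero_even m m0 m1 D X hXt hXn G hQ (hne G hG).1
    · push Not at hQ
      obtain ⟨v, hv⟩ := hQ
      exact cov_nonzero h3 D X hXt hXn G v hv
  · obtain ⟨t, D⟩ := dat_odd hodd h2
    have hd : (!![0, 1; 1, t] : M2).det = -1 := by rw [det_fin_two_of]; ring
    obtain ⟨X, hX⟩ : ∃ X : GL2, (X : M2) = !![0, 1; 1, t] := ⟨mkGL _ (by rw [hd]; exact neg_ne_zero.mpr one_ne_zero), rfl⟩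
    have hXt : (X : M2).trace = t := by rw [hX, trace_fin_two_of]; ring
    have hXn : (X : M2).det = -1 := by rw [hX, hd]
    refine ⟨t, -1, X, hXt, hXn, D.ir, ?_⟩
    intro G hG
    by_cases hQ : ∀ v : V F, om (G.1 *ᵥ v) v = 0
    · left
      exact cov_zero_odd h2 D X hXt hXn G hQ (hne G hG).1 (hne G hG).2
    · push Not at hQ
      obtain ⟨v, hv⟩ := hQ
      exact cov_nonzero h3 D X hXt hXn G v hv

end CfsgLib.H6S4
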