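import Cfsg.Agent.EqBase
import Cfsg.Agent.LibCoprime
import Cfsg.Agent.LibH6Basic

/-! Isaacs: the subgroup generated by the small classes. -/

set_option autoImplicit false

namespace CfsgLib.H6

open Subgroup

theorem small_class_comm {G : Type*} [Group G] [Finite G]
    (A : Subgroup G) [A.Normal] (hA : ∀ a ∈ A, ∀ b ∈ A, a * b = b * a)
    (m : ℕ) (hmin : ∀ x : G, 1 < (Subgroup.centralizer ({x} : Set G)).index → m ≤ (Subgroup.centralizer ({x} : Set G)).index)
    (x : G) (hx : (Subgroup.centralizer ({x} : Set G)).index = m) (a : G) (ha : a ∈ A) :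
    x * a * x⁻¹ * a⁻¹ ∈ Subgroup.center G := by
  classical
  let C : Subgroup G := centralizer ({x} : Set G)
  have hxA : ∀ a ∈ A, x * a * x⁻¹ * a⁻¹ ∈ A := fun a ha =>
    mul_mem (Subgroup.Normal.conj_mem inferInstance a ha x) (inv_mem ha)
  let φ : A →* G :=
    { toFun := fun a => x * a * x⁻¹ * (a : G)⁻¹
      map_one' := by simp
      map_mul' := fun a b => by
        have h1 : (a : G)⁻¹ * (x * b * x⁻¹) = (x * b * x⁻¹) * (a : G)⁻¹ :=
          hA _ (inv_mem a.2) _ (Subgroup.Normal.conj_mem inferInstance _ b.2 x)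
        have h2 : (b : G)⁻¹ * (a : G)⁻¹ = (a : G)⁻¹ * (b : G)⁻¹ := hA _ (inv_mem b.2) _ (inv_mem a.2)
        show x * ((a * b : A) : G) * x⁻¹ * ((a * b : A) : G)⁻¹ = x * a * x⁻¹ * (a : G)⁻¹ * (x * b * x⁻¹ * (b : G)⁻¹)
        calc x * ((a * b : A) : G) * x⁻¹ * ((a * b : A) : G)⁻¹
            = (x * a * x⁻¹) * (x * b * x⁻¹) * ((b : G)⁻¹ * (a : G)⁻¹) := by
              rw [Subgroup.coe_mul]; group
          _ = (x * a * x⁻¹) * ((x * b * x⁻¹) * (a : G)⁻¹) * (b : G)⁻¹ := by rw [h2]; group
          _ = _ := by rw [← h1]; group }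
  have hφ : ∀ a : A, φ a = x * a * x⁻¹ * (a : G)⁻¹ := fun a => rfl
  let B : Subgroup G := φ.range
  have hBA : B ≤ A := by
    rintro _ ⟨a, rfl⟩
    exact hxA a a.2
  have hker : φ.ker = C.subgroupOf A := by
    ext a
    rw [MonoidHom.mem_ker, hφ, Subgroup.mem_subgroupOf]
    show _ ↔ (a : G) ∈ centralizer ({x} : Set G)
    rw [mem_centralizer_singleton_iff]
    constructor
    · intro h
      have : x * a = a * x := by
        have h1 : x * a * x⁻¹ = a := mul_inv_eq_one.mp h
        calc x * a = (x * a * x⁻¹) * x := by group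
          _ = a * x := by rw [h1]
      exact this.symm
    · intro h
      rw [← h]; group
  have hBcard : Nat.card B * Nat.card (C.subgroupOf A) = Nat.card A := by
    rw [← hker]
    have h1 := Subgroup.card_mul_index φ.ker
    rw [Subgroup.index_ker] at h1
    rw [mul_comm]
    exact h1
  let H : Subgroup G := C ⊔ A
  have hHcard : Nat.card H = Nat.card B * Nat.card C := by
    have h1 : Nat.card ↥(C ⊔ A) * Nat.card ↥(C ⊓ A) = Nat.card C * Nat.card A :=
      CfsgLib.Coprime.card_sup_mul_card_inf (le_top.trans (Subgroup.normalizer_eq_top_iff.mpr inferInstance).ge)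
    have h2 : Nat.card (C.subgroupOf A) = Nat.card ↥(C ⊓ A) := by
      rw [inf_comm]
      apply Nat.card_congr
      exact ⟨fun z => ⟨z.1.1, mem_inf.mpr ⟨z.1.2, z.2⟩⟩, fun z => ⟨⟨z.1, (mem_inf.mp z.2).1⟩, (mem_inf.mp z.2).2⟩,
        fun _ => rfl, fun _ => rfl⟩
    have hpos : 0 < Nat.card ↥(C ⊓ A) := Nat.card_pos
    rw [h2] at hBcard
    rw [← hBcard] at h1
    apply Nat.eq_of_mul_eq_mul_right hpos
    rw [show Nat.card B * Nat.card C * Nat.card ↥(C ⊓ A) = Nat.card C * (Nat.card B * Nat.card ↥(C ⊓ A)) by ring]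
    exact h1
  have hHidx : H.index * Nat.card B = m := by
    have h1 := Subgroup.index_mul_card H
    have h2 : m * Nat.card C = Nat.card G := by rw [← hx]; exact Subgroup.index_mul_card C
    have hpos : 0 < Nat.card C := Nat.card_pos
    apply Nat.eq_of_mul_eq_mul_right hpos
    rw [h2, ← h1, hHcard]; ring
  -- `H` normalizes `B`
  have hHB : ∀ h ∈ H, ∀ b ∈ B, h * b * h⁻¹ ∈ B := by
    have hle : H ≤ Subgroup.normalizer (B : Set G) := by
      refine sup_le ?_ ?_
      · intro c hc
        have hcx : c * x = x * c := mem_centralizer_singleton_iff.mp hc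
        rw [mem_normalizer_iff]
        have key : ∀ d : G, d * x = x * d → ∀ n ∈ B, d * n * d⁻¹ ∈ B := by
          rintro d hd _ ⟨a, rfl⟩
          refine ⟨⟨d * a * d⁻¹, Subgroup.Normal.conj_mem inferInstance _ a.2 d⟩, ?_⟩
          rw [hφ, hφ]
          show x * (d * a * d⁻¹) * x⁻¹ * (d * a * d⁻¹)⁻¹ = d * (x * a * x⁻¹ * (a : G)⁻¹) * d⁻¹
          have e1 : d⁻¹ * x⁻¹ = x⁻¹ * d⁻¹ := by rw [← mul_inv_rev, ← mul_inv_rev, hd]
          calc x * (d * a * d⁻¹) * x⁻¹ * (d * a * d⁻¹)⁻¹ = (x * d) * a * (d⁻¹ * x⁻¹) * (d * (a : G)⁻¹ * d⁻¹) := by group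
            _ = (d * x) * a * (x⁻¹ * d⁻¹) * (d * (a : G)⁻¹ * d⁻¹) := by rw [e1, hd]
            _ = _ := by group
        intro n
        constructor
        · exact key c hcx n
        · intro hn
          have hc' : c⁻¹ * x = x * c⁻¹ := by
            rw [inv_mul_eq_iff_eq_mul, ← mul_assoc, hcx]; group
          have := key c⁻¹ hc' _ hn
          have e : c⁻¹ * (c * n * c⁻¹) * c⁻¹⁻¹ = n := by group
          rwa [e] at this
      · intro c hc
        rw [mem_normalizer_iff]
        intro n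
        constructor
        · intro hn
          have := hA c hc n (hBA hn)
          rw [this, mul_inv_cancel_right]; exact hn
        · intro hn
          have h1 : c * n * c⁻¹ ∈ A := hBA hn
          have h2 : n ∈ A := by
            have := mul_mem (mul_mem (inv_mem hc) h1) hc
            have e : c⁻¹ * (c * n * c⁻¹) * c = n := by group
            rwa [e] at this
          have := hA c hc n h2
          rwa [this, mul_inv_cancel_right] at hn
    intro h hh b hb
    exact (mem_normalizer_iff.mp (hle hh) b).mp hb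
  -- the elements of `B` are central
  by_contra hnot
  set y := x * a * x⁻¹ * a⁻¹ with hy
  have hyB : y ∈ B := ⟨⟨a, ha⟩, rfl⟩
  have hy1 : y ≠ 1 := by
    intro h; apply hnot; rw [h]; exact one_mem _
  have hyidx : 1 < (centralizer ({y} : Set G)).index := by
    have h0 : (centralizer ({y} : Set G)).index ≠ 0 := Subgroup.index_ne_zero_of_finite
    have h1 : (centralizer ({y} : Set G)).index ≠ 1 := by
      rw [Ne, index_cent_eq_one_iff]; exact hnot
    omega
  have h1 := hmin y hyidx
  letI act : MulAction H G := MulAction.compHom G ((MulAut.conj : G →* MulAut G).comp H.subtype)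
  have hsmul : ∀ (n : H) (g : G), n • g = (n : G) * g * (n : G)⁻¹ := fun n g => rfl
  have h2 : (MulAction.orbit H y) ⊆ (B : Set G) \ {1} := by
    rintro _ ⟨h, rfl⟩
    refine ⟨hHB h h.2 y hyB, ?_⟩
    intro h3
    apply hy1
    have h4 : (h : G) * y * (h : G)⁻¹ = 1 := h3
    calc y = (h : G)⁻¹ * ((h : G) * y * (h : G)⁻¹) * h := by group
      _ = 1 := by rw [h4]; group
  have h3 : (MulAction.orbit H y).ncard ≤ Nat.card B - 1 := by
    refine (Set.ncard_le_ncard h2 (Set.toFinite _)).trans ?_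
    rw [Set.ncard_diff_singleton_of_mem (one_mem B), ← Nat.card_coe_set_eq]
    exact le_refl _
  have h4 : (MulAction.stabilizer H y).index ≤ Nat.card B - 1 := by
    rw [MulAction.index_stabilizer]; exact h3
  have h5 : (centralizer ({y} : Set G)).index ≤ (MulAction.stabilizer H y).index * H.index := by
    have h6 : (centralizer ({y} : Set G)).subgroupOf H = MulAction.stabilizer H y := by
      ext h
      rw [Subgroup.mem_subgroupOf, mem_centralizer_singleton_iff, MulAction.mem_stabilizer_iff, hsmul, mul_inv_eq_iff_eq_mul]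
    rw [← h6]
    show _ ≤ (centralizer ({y} : Set G)).relIndex H * H.index
    rw [← Subgroup.inf_relIndex_right, Subgroup.relIndex_mul_index inf_le_right]
    exact Nat.le_of_dvd (Nat.pos_of_ne_zero Subgroup.index_ne_zero_of_finite) (Subgroup.index_dvd_of_le inf_le_left)
  have hBpos : 0 < Nat.card B := Nat.card_pos
  have hHpos : 0 < H.index := Nat.pos_of_ne_zero Subgroup.index_ne_zero_of_finite
  have h6 : (MulAction.stabilizer H y).index * H.index ≤ (Nat.card B - 1) * H.index := Nat.mul_le_mul_right _ h4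
  have h7 : (Nat.card B - 1) * H.index < m := by
    rw [← hHidx, mul_comm]
    apply Nat.mul_lt_mul_of_pos_left _ hHpos
    omega
  omega

open scoped commutatorElement in
/-- Isaacs: the subgroup generated by the elements in classes of size `1` or `m` (the minimal nontrivial class size)
has class at most `3`. -/
theorem small_class_nilpotent {G : Type*} [Group G] [Finite G]
    (A : Subgroup G) [A.Normal] (hA : ∀ a ∈ A, ∀ b ∈ A, a * b = b * a) (hCA : Subgroup.centralizer (A : Set G) = A)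
    (m : ℕ) (hmin : ∀ x : G, 1 < (Subgroup.centralizer ({x} : Set G)).index → m ≤ (Subgroup.centralizer ({x} : Set G)).index)
    (S : Set G) (hS : ∀ x ∈ S, (Subgroup.centralizer ({x} : Set G)).index = 1 ∨ (Subgroup.centralizer ({x} : Set G)).index = m) :
    Subgroup.upperCentralSeries ↥(Subgroup.closure S) 3 = ⊤ := by
  classical
  set M := Subgroup.closure S with hM
  have h1 : ∀ x ∈ M, ∀ a ∈ A, x * a * x⁻¹ * a⁻¹ ∈ Subgroup.center G := by
    intro x hx
    rw [hM] at hx
    induction hx using Subgroup.closure_induction with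
    | mem x hx =>
      intro a ha
      rcases hS x hx with h | h
      · rw [index_cent_eq_one_iff] at h
        have := Subgroup.mem_center_iff.mp h a
        rw [← this, mul_inv_cancel_right, mul_inv_cancel]
        exact one_mem _
      · exact small_class_comm A hA m hmin x h a ha
    | one =>
      intro a _
      have : (1 : G) * a * 1⁻¹ * a⁻¹ = 1 := by group
      rw [this]; exact one_mem _
    | mul x y _ _ hx hy =>
      intro a ha
      have hya : y * a * y⁻¹ ∈ A := Subgroup.Normal.conj_mem inferInstance a ha y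
      have e : x * y * a * (x * y)⁻¹ * a⁻¹ = (x * (y * a * y⁻¹) * x⁻¹ * (y * a * y⁻¹)⁻¹) * (y * a * y⁻¹ * a⁻¹) := by group
      rw [e]
      exact mul_mem (hx _ hya) (hy a ha)
    | inv x _ hx =>
      intro a ha
      have hxa : x⁻¹ * a * x⁻¹⁻¹ ∈ A := Subgroup.Normal.conj_mem inferInstance a ha x⁻¹
      have h2 := inv_mem (hx _ hxa)
      have e : (x * (x⁻¹ * a * x⁻¹⁻¹) * x⁻¹ * (x⁻¹ * a * x⁻¹⁻¹)⁻¹)⁻¹ = x⁻¹ * a * x⁻¹⁻¹ * a⁻¹ := by group
      rwa [e] at h2
  have h2 : ∀ x ∈ M, ∀ y ∈ M, x * y * x⁻¹ * y⁻¹ ∈ A := by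
    intro x hx y hy
    rw [← hCA, Subgroup.mem_centralizer_iff]
    intro a ha
    have hac : ∀ x ∈ M, ∀ a ∈ A, ∃ z ∈ Subgroup.center G, x * a * x⁻¹ = z * a := by
      intro x hx a ha
      exact ⟨_, h1 x hx a ha, by group⟩
    -- both products act in the same way
    obtain ⟨z1, hz1, e1⟩ := hac x hx a ha
    obtain ⟨z2, hz2, e2⟩ := hac y hy a ha
    have c1 := Subgroup.mem_center_iff.mp hz1
    have c2 := Subgroup.mem_center_iff.mp hz2
    have f1 : (x * y) * a * (x * y)⁻¹ = z2 * z1 * a := by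
      calc (x * y) * a * (x * y)⁻¹ = x * (y * a * y⁻¹) * x⁻¹ := by group
        _ = x * (z2 * a) * x⁻¹ := by rw [e2]
        _ = (x * z2) * a * x⁻¹ := by group
        _ = (z2 * x) * a * x⁻¹ := by rw [c2 x]
        _ = z2 * (x * a * x⁻¹) := by group
        _ = z2 * z1 * a := by rw [e1]; group
    have f2 : (y * x) * a * (y * x)⁻¹ = z2 * z1 * a := by
      calc (y * x) * a * (y * x)⁻¹ = y * (x * a * x⁻¹) * y⁻¹ := by group
        _ = y * (z1 * a) * y⁻¹ := by rw [e1]
        _ = (y * z1) * a * y⁻¹ := by group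
        _ = (z1 * y) * a * y⁻¹ := by rw [c1 y]
        _ = z1 * (y * a * y⁻¹) := by group
        _ = z1 * z2 * a := by rw [e2]; group
        _ = z2 * z1 * a := by rw [c1 z2]
    have hkey : (x * y) * a * (x * y)⁻¹ = (y * x) * a * (y * x)⁻¹ := by rw [f1, f2]
    -- apply with a replaced by conj
    have hkey2 : ∀ a ∈ A, (x * y * x⁻¹ * y⁻¹) * a * (x * y * x⁻¹ * y⁻¹)⁻¹ = a := by
      intro a ha
      have ha' : (y * x)⁻¹ * a * (y * x)⁻¹⁻¹ ∈ A := Subgroup.Normal.conj_mem inferInstance a ha (y * x)⁻¹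
      obtain ⟨z1, hz1, e1⟩ := hac x hx _ ha'
      obtain ⟨z2, hz2, e2⟩ := hac y hy _ ha'
      have c1 := Subgroup.mem_center_iff.mp hz1
      have c2 := Subgroup.mem_center_iff.mp hz2
      set b := (y * x)⁻¹ * a * (y * x)⁻¹⁻¹ with hb
      have f1 : (x * y) * b * (x * y)⁻¹ = z2 * z1 * b := by
        calc (x * y) * b * (x * y)⁻¹ = x * (y * b * y⁻¹) * x⁻¹ := by group
          _ = x * (z2 * b) * x⁻¹ := by rw [e2]
          _ = (x * z2) * b * x⁻¹ := by group
          _ = (z2 * x) * b * x⁻¹ := by rw [c2 x]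
          _ = z2 * (x * b * x⁻¹) := by group
          _ = z2 * z1 * b := by rw [e1]; group
      have f2 : (y * x) * b * (y * x)⁻¹ = z2 * z1 * b := by
        calc (y * x) * b * (y * x)⁻¹ = y * (x * b * x⁻¹) * y⁻¹ := by group
          _ = y * (z1 * b) * y⁻¹ := by rw [e1]
          _ = (y * z1) * b * y⁻¹ := by group
          _ = (z1 * y) * b * y⁻¹ := by rw [c1 y]
          _ = z1 * (y * b * y⁻¹) := by group
          _ = z1 * z2 * b := by rw [e2]; group
          _ = z2 * z1 * b := by rw [c1 z2]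
      have f3 : (y * x) * b * (y * x)⁻¹ = a := by rw [hb]; group
      calc (x * y * x⁻¹ * y⁻¹) * a * (x * y * x⁻¹ * y⁻¹)⁻¹ = (x * y) * b * (x * y)⁻¹ := by rw [hb]; group
        _ = a := by rw [f1, ← f2, f3]
    have := hkey2 a ha
    exact (mul_inv_eq_iff_eq_mul.mp this).symm
  rw [eq_top_iff]
  intro x _
  rw [Subgroup.mem_upperCentralSeries_succ_iff]
  intro y
  rw [Subgroup.mem_upperCentralSeries_succ_iff]
  intro z
  rw [Subgroup.mem_upperCentralSeries_succ_iff]
  intro w
  rw [Subgroup.upperCentralSeries_zero, Subgroup.mem_bot, commutatorElement_eq_one_iff_mul_comm]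
  apply Subtype.ext
  have hxy : ((⁅x, y⁆ : M) : G) ∈ A := h2 x x.2 y y.2
  have hxyz : ((⁅⁅x, y⁆, z⁆ : M) : G) ∈ Subgroup.center G := by
    have h3 := inv_mem (h1 z z.2 _ hxy)
    have e : ((z : G) * ((⁅x, y⁆ : M) : G) * (z : G)⁻¹ * ((⁅x, y⁆ : M) : G)⁻¹)⁻¹ = ((⁅⁅x, y⁆, z⁆ : M) : G) := by
      rw [commutatorElement_def (⁅x, y⁆) z]
      simp only [Subgroup.coe_mul, Subgroup.coe_inv]
      group
    rwa [e] at h3
  have := Subgroup.mem_center_iff.mp hxyz (w : G)
  rw [Subgroup.coe_mul, Subgroup.coe_mul]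
  exact this.symm

end CfsgLib.H6
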