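import Cfsg.Statements.S4116
import Mathlib
import Cfsg.Agent.LibH6Conj

set_option autoImplicit false
open Cfsg

namespace Cfsg.Agent.S4116

open scoped Pointwise
open CfsgLib.H6


/-- Let G be a finite group with a subgroup H whose order is coprime to its index (a Hall subgroup) and which meets each of its conjugates by elements outside N_G(H) trivially. Then every subgroup of G whose order is divisible only by primes dividing the order of H lies in a conjugate of H. -/
theorem result {G : Type*} [Group G] [Finite G] (H : Subgroup G)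
    (hHall : (Nat.card H).Coprime H.index) (hTI : Cfsg.IsTISubset (H : Set G))
    (K : Subgroup G) (hK : ∀ q : ℕ, q.Prime → q ∣ Nat.card K → q ∣ Nat.card H) :
    ∃ g : G, K ≤ H.map (MulAut.conj g).toMonoidHom := by
  classical
  by_cases hK1 : K = ⊥
  · exact ⟨1, by rw [hK1]; exact bot_le⟩
  have hmap : ∀ g : G, H.map (MulAut.conj g).toMonoidHom = MulAut.conj g • H := fun g => rfl
  -- TI in terms of conjugates
  have hTI' : ∀ a b x : G, x ≠ 1 → x ∈ MulAut.conj a • H → x ∈ MulAut.conj b • H →
      MulAut.conj a • H = MulAut.conj b • H := by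
    intro a b x hx ha hb
    rw [mem_conj_iff] at ha hb
    have hn : b⁻¹ * a ∈ Subgroup.normalizer (H : Set G) := by
      by_contra hn
      have h1 := hTI _ hn (a⁻¹ * x * a) ha (by
        have e : b⁻¹ * a * (a⁻¹ * x * a) * (b⁻¹ * a)⁻¹ = b⁻¹ * x * b := by group
        rw [e]; exact hb)
      apply hx
      have e : x = a * (a⁻¹ * x * a) * a⁻¹ := by group
      rw [e, h1]; group
    ext y
    rw [mem_conj_iff, mem_conj_iff]
    have h2 := Subgroup.mem_normalizer_iff.mp hn (a⁻¹ * y * a)
    have e : b⁻¹ * a * (a⁻¹ * y * a) * (b⁻¹ * a)⁻¹ = b⁻¹ * y * b := by group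
    rw [e] at h2
    exact h2
  -- a π-element normalizing H^a lies in H^a
  have hnorm : ∀ a k : G, k ∈ K → MulAut.conj k • (MulAut.conj a • H) = MulAut.conj a • H →
      k ∈ MulAut.conj a • H := by
    intro a k hk hka
    set L := MulAut.conj a • H with hL
    have hkN : k ∈ Subgroup.normalizer (L : Set G) := by
      rw [Subgroup.mem_normalizer_iff]
      intro y
      have e : k⁻¹ * (k * y * k⁻¹) * k = y := by group
      have h0 : k * y * k⁻¹ ∈ MulAut.conj k • L ↔ y ∈ L := by rw [mem_conj_iff, e]
      rw [hka] at h0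
      exact h0.symm
    have hLcard : Nat.card L = Nat.card H := Subgroup.card_map_of_injective (MulAut.conj a).injective
    have hLindex : L.index = H.index := Subgroup.index_map_of_bijective (MulAut.conj a).bijective H
    -- consider the quotient N(L)/L
    have hLn : (L.subgroupOf (Subgroup.normalizer (L : Set G))).Normal := Subgroup.normal_in_normalizer
    let q := QuotientGroup.mk' (L.subgroupOf (Subgroup.normalizer (L : Set G)))
    let k' : Subgroup.normalizer (L : Set G) := ⟨k, hkN⟩
    have h1 : orderOf (q k') ∣ Nat.card K := by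
      have h2 : orderOf (q k') ∣ orderOf k' := orderOf_map_dvd q k'
      have h3 : orderOf k' = orderOf k := Subgroup.orderOf_mk _ _
      have h4 : orderOf k ∣ Nat.card K := Subgroup.orderOf_dvd_natCard K hk
      exact h2.trans (h3 ▸ h4)
    have h2 : orderOf (q k') ∣ H.index := by
      have h3 : orderOf (q k') ∣ Nat.card (Subgroup.normalizer (L : Set G) ⧸ L.subgroupOf (Subgroup.normalizer (L : Set G))) :=
        orderOf_dvd_natCard _
      have h4 : Nat.card (Subgroup.normalizer (L : Set G) ⧸ L.subgroupOf (Subgroup.normalizer (L : Set G))) ∣ L.index := by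
        change L.relIndex (Subgroup.normalizer (L : Set G)) ∣ L.index
        exact Subgroup.relIndex_dvd_index_of_le Subgroup.le_normalizer
      rw [hLindex] at h4
      exact h3.trans h4
    have h3 : orderOf (q k') = 1 := by
      by_contra hne
      obtain ⟨r, hr, hrd⟩ := Nat.exists_prime_and_dvd hne
      have h4 := hK r hr (hrd.trans h1)
      have h5 := Nat.dvd_gcd h4 (hrd.trans h2)
      rw [hHall] at h5
      exact hr.one_lt.ne' (Nat.dvd_one.mp h5)
    rw [orderOf_eq_one_iff] at h3
    have h4 : k' ∈ L.subgroupOf (Subgroup.normalizer (L : Set G)) := (QuotientGroup.eq_one_iff k').mp h3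
    exact h4
  -- covering
  have hcov : ∀ k ∈ K, k ≠ 1 → ∃ a : G, k ∈ MulAut.conj a • H := by
    intro k hk hk1
    obtain ⟨r, hr, hrd⟩ := Nat.exists_prime_and_dvd (n := orderOf k) (by rw [Ne, orderOf_eq_one_iff]; exact hk1)
    have := Fact.mk hr
    have hrH : r ∣ Nat.card H := hK r hr (hrd.trans (Subgroup.orderOf_dvd_natCard K hk))
    have hrI : ¬ r ∣ H.index := by
      intro h
      have h5 := Nat.dvd_gcd hrH h
      rw [hHall] at h5
      exact hr.one_lt.ne' (Nat.dvd_one.mp h5)
    set x := k ^ (orderOf k / r) with hx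
    have hxo : orderOf x = r := by
      rw [hx, orderOf_pow_of_dvd (Nat.div_pos (Nat.le_of_dvd (orderOf_pos k) hrd) hr.pos).ne' (Nat.div_dvd_of_dvd hrd)]
      exact Nat.div_div_self hrd (orderOf_pos k).ne'
    have hx1 : x ≠ 1 := by
      intro h; rw [h, orderOf_one] at hxo; exact hr.one_lt.ne hxo
    -- Sylow r-subgroup inside H
    let R : Sylow r H := default
    have hRp : IsPGroup r ((R : Subgroup H).map H.subtype) := R.isPGroup'.map _
    obtain ⟨R', hR'⟩ := hRp.exists_le_sylow
    have hcardR : Nat.card (R' : Subgroup G) ≤ Nat.card ((R : Subgroup H).map H.subtype) := by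
      rw [Subgroup.card_map_of_injective (Subgroup.subtype_injective _)]
      rw [show Nat.card (R' : Subgroup G) = _ from Sylow.card_eq_multiplicity R',
        show Nat.card (R : Subgroup H) = _ from Sylow.card_eq_multiplicity R]
      apply Nat.pow_le_pow_right hr.pos
      rw [← Subgroup.card_mul_index H, Nat.factorization_mul Nat.card_pos.ne' Subgroup.index_ne_zero_of_finite]
      simp [Nat.factorization_eq_zero_of_not_dvd hrI]
    have hReq : (R : Subgroup H).map H.subtype = (R' : Subgroup G) := Subgroup.eq_of_le_of_card_ge hR' hcardR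
    have hR'H : (R' : Subgroup G) ≤ H := by rw [← hReq]; exact Subgroup.map_subtype_le _
    obtain ⟨S, hS⟩ := (IsPGroup.of_card (p := r) (n := 1) (by rw [pow_one, Nat.card_zpowers]; exact hxo) :
      IsPGroup r (Subgroup.zpowers x)).exists_le_sylow
    obtain ⟨a, ha⟩ := MulAction.exists_smul_eq G R' S
    have hxa : x ∈ MulAut.conj a • H := by
      have h1 := hS (Subgroup.mem_zpowers x)
      rw [← ha, Sylow.coe_subgroup_smul] at h1
      rw [mem_conj_iff]
      obtain ⟨z, hz, hzx⟩ := h1
      have hzx' : a * z * a⁻¹ = x := hzx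
      rw [← hzx']
      have e : a⁻¹ * (a * z * a⁻¹) * a = z := by group
      rw [e]; exact hR'H hz
    refine ⟨a, hnorm a k hk ?_⟩
    -- k commutes with x
    have hkx : k * x * k⁻¹ = x := by
      rw [hx]
      have : Commute k (k ^ (orderOf k / r)) := Commute.pow_right (Commute.refl k) _
      rw [this.eq]; group
    have h1 : x ∈ MulAut.conj (k * a) • H := by
      rw [mem_conj_iff]
      rw [mem_conj_iff] at hxa
      have e : (k * a)⁻¹ * x * (k * a) = a⁻¹ * (k⁻¹ * x * k) * a := by group
      have e2 : k⁻¹ * x * k = x := by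
        conv_lhs => rw [← hkx]
        group
      rw [e, e2]; exact hxa
    have h2 := hTI' (k * a) a x hx1 h1 hxa
    rw [map_mul, mul_smul] at h2
    exact h2
  -- the partition of K
  have hKnt : Nontrivial K := (Subgroup.nontrivial_iff_ne_bot K).mpr hK1
  let 𝒥 : Set (Subgroup K) := {J | J ≠ ⊥ ∧ ∃ a : G, J = (MulAut.conj a • H).subgroupOf K}
  have htop : (⊤ : Subgroup K) ∈ 𝒥 := by
    apply top_mem_of_partition 𝒥
    · exact fun J hJ => hJ.1
    · rintro J ⟨hJ, a, rfl⟩ k
      refine ⟨?_, (k : G) * a, ?_⟩
      · intro h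
        apply hJ
        rw [eq_bot_iff]
        intro y hy
        have h1 : k * y * k⁻¹ ∈ MulAut.conj k • (MulAut.conj a • H).subgroupOf K := by
          rw [mem_conj_iff]
          have e : k⁻¹ * (k * y * k⁻¹) * k = y := by group
          rw [e]; exact hy
        rw [h, Subgroup.mem_bot] at h1
        rw [Subgroup.mem_bot]
        have e : y = k⁻¹ * (k * y * k⁻¹) * k := by group
        rw [e, h1]; group
      · ext y
        rw [mem_conj_iff, Subgroup.mem_subgroupOf, Subgroup.mem_subgroupOf, mem_conj_iff, mem_conj_iff]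
        have e : ((k : G) * a)⁻¹ * (y : G) * ((k : G) * a) = a⁻¹ * ((k⁻¹ * y * k : K) : G) * a := by
          push_cast; group
        rw [e]
    · rintro J ⟨hJ, a, rfl⟩ J' ⟨hJ', b, rfl⟩ hne
      rw [eq_bot_iff]
      rintro y ⟨hy1, hy2⟩
      rw [Subgroup.mem_bot]
      by_contra hy
      apply hne
      rw [hTI' a b (y : G) (fun h => hy (Subtype.ext h)) hy1 hy2]
    · rintro J ⟨hJ, a, rfl⟩ k hk
      obtain ⟨y, hy1⟩ := Subgroup.ne_bot_iff_exists_ne_one.mp hJ
      have hy := y.2
      have hyne : ((y : K) : G) ≠ 1 := fun h => hy1 (Subtype.ext (Subtype.ext h))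
      have h1 : (k * y * k⁻¹ : K) ∈ (MulAut.conj a • H).subgroupOf K := by
        have h0 : (k * y * k⁻¹ : K) ∈ MulAut.conj k • (MulAut.conj a • H).subgroupOf K := by
          rw [mem_conj_iff]
          have e : k⁻¹ * (k * (y : K) * k⁻¹) * k = y := by group
          rw [e]; exact hy
        rwa [hk] at h0
      rw [Subgroup.mem_subgroupOf] at h1 hy ⊢
      apply hnorm a k k.2
      rw [← mul_smul, ← map_mul]
      apply hTI' _ _ ((k * y * k⁻¹ : K) : G) _ _ h1
      · intro h
        apply hyne
        have h2 : (k * (y : K) * k⁻¹ : K) = 1 := Subtype.ext h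
        have e : (y : K) = k⁻¹ * (k * (y : K) * k⁻¹) * k := by group
        rw [e, h2]; simp
      · rw [mem_conj_iff]
        rw [mem_conj_iff] at hy
        have e : ((k : G) * a)⁻¹ * ((k * (y : K) * k⁻¹ : K) : G) * ((k : G) * a) = a⁻¹ * ((y : K) : G) * a := by
          push_cast; group
        rw [e]; exact hy
    · intro k hk
      obtain ⟨a, ha⟩ := hcov k k.2 (fun h => hk (Subtype.ext h))
      refine ⟨(MulAut.conj a • H).subgroupOf K, ⟨?_, a, rfl⟩, ha⟩
      intro h
      have h1 : k ∈ (MulAut.conj a • H).subgroupOf K := ha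
      rw [h, Subgroup.mem_bot] at h1
      exact hk h1
  obtain ⟨-, a, ha⟩ := htop
  exact ⟨a, Subgroup.subgroupOf_eq_top.mp ha.symm⟩

end Cfsg.Agent.S4116
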