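import Cfsg.Agent.EqBase
import Cfsg.Agent.LibFrob6d
import Cfsg.Agent.LibH6ZGroup
import Cfsg.Agent.S4116
import Cfsg.Agent.S0039

set_option autoImplicit false

namespace CfsgLib.H6

open Subgroup
open scoped Pointwise

variable {G : Type*} [Group G] [Finite G]

/-- TI subgroup: nontrivial intersection forces normalizing -/
theorem mem_normalizer_of_TI {H : Subgroup G} (hTI : Cfsg.IsTISubset (H : Set G)) {g x : G} (hx : x ∈ H)
    (hgx : g * x * g⁻¹ ∈ H) (hx1 : x ≠ 1) : g ∈ normalizer (H : Set G) := by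
  by_contra h
  exact hx1 (hTI g h x hx hgx)

/-- normalizers of nontrivial subgroups of TI subgroups -/
theorem normalizer_le_of_TI {H K : Subgroup G} (hTI : Cfsg.IsTISubset (H : Set G)) (hK : K ≤ H) (hK1 : K ≠ ⊥) :
    normalizer (K : Set G) ≤ normalizer (H : Set G) := by
  obtain ⟨x, hx, hx1⟩ := (Subgroup.bot_or_exists_ne_one K).resolve_left hK1
  intro g hg
  exact mem_normalizer_of_TI hTI (hK hx) (hK ((mem_normalizer_iff.mp hg x).mp hx)) hx1

/-- A TI-subgroup that is a Hall subgroup of its normalizer is a Hall subgroup -/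
theorem hall_of_TI {H : Subgroup G} (hTI : Cfsg.IsTISubset (H : Set G))
    (hHall : (Nat.card H).Coprime (H.subgroupOf (normalizer (H : Set G))).index) :
    (Nat.card H).Coprime H.index := by
  rw [Nat.coprime_iff_gcd_eq_one]
  by_contra hne
  obtain ⟨p, hp, hpd⟩ := Nat.exists_prime_and_dvd hne
  have hp1 : p ∣ Nat.card H := hpd.trans (Nat.gcd_dvd_left _ _)
  have hp2 : p ∣ H.index := hpd.trans (Nat.gcd_dvd_right _ _)
  have := Fact.mk hp
  obtain ⟨P⟩ := (inferInstance : Nonempty (Sylow p H))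
  have hPc := P.card_eq_multiplicity
  set n := (Nat.card H).factorization p with hn
  set Q : Subgroup G := (P : Subgroup H).map H.subtype with hQ
  have hQH : Q ≤ H := map_subtype_le _
  have hQc : Nat.card Q = p ^ n := by
    rw [hQ, card_map_of_injective H.subtype_injective]; exact hPc
  have hQ1 : Q ≠ ⊥ := by
    intro h
    apply Sylow.ne_bot_of_dvd_card P hp1
    rw [hQ, Subgroup.map_eq_bot_iff, ker_subtype, le_bot_iff] at h
    exact h
  have hdvd : p ^ (n + 1) ∣ Nat.card G := by
    rw [← H.card_mul_index, pow_succ]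
    exact Nat.mul_dvd_mul (Nat.ordProj_dvd _ _) hp2
  have h1 := Sylow.prime_dvd_card_quotient_normalizer hdvd hQc
  have h2 : p ^ (n + 1) ∣ Nat.card (normalizer (Q : Set G)) := by
    have h3 := (Q.subgroupOf (normalizer (Q : Set G))).card_mul_index
    rw [Nat.card_congr (subgroupOfEquivOfLe (le_normalizer (H := Q))).toEquiv, hQc] at h3
    rw [← h3, pow_succ]
    exact Nat.mul_dvd_mul_left _ h1
  have h4 : p ^ (n + 1) ∣ Nat.card (normalizer (H : Set G)) :=
    h2.trans (card_dvd_of_le (normalizer_le_of_TI hTI hQH hQ1))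
  have h5 := (H.subgroupOf (normalizer (H : Set G))).card_mul_index
  rw [Nat.card_congr (subgroupOfEquivOfLe (le_normalizer (H := H))).toEquiv] at h5
  rw [← h5] at h4
  have h6 : (p ^ (n + 1)).Coprime (H.subgroupOf (normalizer (H : Set G))).index :=
    Nat.Coprime.pow_left _ (hHall.coprime_dvd_left hp1)
  have h7 := h6.dvd_of_dvd_mul_right h4
  have h8 := (Nat.Prime.pow_dvd_iff_le_factorization hp Nat.card_pos.ne').mp h7
  omega

/-- normal p'-subgroups meet the normalizer in the centralizer -/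
theorem inf_normalizer_le_centralizer {H M : Subgroup G} (hM : M.Normal) (hMH : M ⊓ H = ⊥) :
    M ⊓ normalizer (H : Set G) ≤ centralizer (H : Set G) := by
  intro x hx
  rw [mem_inf] at hx
  rw [mem_centralizer_iff]
  intro h hh
  have h1 : h * x * h⁻¹ * x⁻¹ ∈ M ⊓ H := by
    rw [mem_inf]
    constructor
    · exact M.mul_mem (hM.conj_mem x hx.1 h) (M.inv_mem hx.1)
    · have h2 : x * h⁻¹ * x⁻¹ ∈ H := (mem_normalizer_iff.mp hx.2 _).mp (H.inv_mem hh)
      have h3 : h * x * h⁻¹ * x⁻¹ = h * (x * h⁻¹ * x⁻¹) := by group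
      rw [h3]
      exact H.mul_mem hh h2
  rw [hMH, mem_bot] at h1
  have : h * x = (h * x * h⁻¹ * x⁻¹) * (x * h) := by group
  rw [this, h1, one_mul]

/-- in a TI situation the centralizers in a normal `π'`-subgroup of nontrivial elements of `H` all agree -/
theorem centralizer_eq_of_TI {H M : Subgroup G} (hTI : Cfsg.IsTISubset (H : Set G)) (hM : M.Normal)
    (hMH : M ⊓ H = ⊥) {h x : G} (hh : h ∈ H) (hh1 : h ≠ 1) (hx : x ∈ M) (hc : x * h = h * x) :
    x ∈ centralizer (H : Set G) := by
  apply inf_normalizer_le_centralizer hM hMH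
  rw [mem_inf]
  refine ⟨hx, mem_normalizer_of_TI hTI hh ?_ hh1⟩
  rw [hc]
  simpa using hh

/-- normal complement to a TI Hall subgroup with a normal complement in its normalizer -/
theorem ti_normal_complement_aux {H N : Subgroup G} (hN : N = normalizer (H : Set G))
    (hTI : Cfsg.IsTISubset (H : Set G))
    (hHall : (Nat.card H).Coprime (H.subgroupOf N).index)
    (K : Subgroup N) (hK : K.Normal)
    (hc : K.IsComplement' (H.subgroupOf N)) :
    ∃ M : Subgroup G, M.Normal ∧ IsComplement' M H := by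
  have hHN : H ≤ N := hN ▸ le_normalizer
  let e : (N ⧸ K) ≃* (H.subgroupOf N) := hc.symm.QuotientMulEquiv
  let π : N →* H := ((subgroupOfEquivOfLe hHN).toMonoidHom.comp e.toMonoidHom).comp (QuotientGroup.mk' K)
  have hes : ∀ h : H.subgroupOf N, e.symm h = ((h : N) : N ⧸ K) := fun h => rfl
  have hπ : ∀ h : H, π (inclusion hHN h) = h := by
    intro h
    have h1 : e ((inclusion hHN h : N) : N ⧸ K) = ⟨inclusion hHN h, h.2⟩ := by
      rw [← hes ⟨inclusion hHN h, h.2⟩, MulEquiv.apply_symm_apply]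
    show (subgroupOfEquivOfLe hHN) (e ((inclusion hHN h : N) : N ⧸ K)) = h
    rw [h1]
    rfl
  have hHn : (H.subgroupOf N).Normal := (normal_subgroupOf_iff_le_normalizer hHN).mpr hN.le
  have hpow : ∀ d : N, d ^ (H.subgroupOf N).index ∈ H.subgroupOf N := fun d => pow_index_mem _ d
  apply CfsgLib.Frob6.normal_complement_of_retraction hHN π hπ
  intro d x hx hd
  have h1 := hpow d
  have h2 := hpow ⟨x * d * x⁻¹, hx⟩
  have h3 : (d : G) ^ (H.subgroupOf N).index ∈ H := h1
  have h4 : x * (d : G) ^ (H.subgroupOf N).index * x⁻¹ ∈ H := by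
    have h5 : (x * (d : G) * x⁻¹) ^ (H.subgroupOf N).index ∈ H := h2
    rwa [conj_pow] at h5
  rw [hN]
  apply mem_normalizer_of_TI hTI h3 h4
  intro h5
  apply hd
  have h6 : π (d ^ (H.subgroupOf N).index) = 1 := by
    have : d ^ (H.subgroupOf N).index = 1 := Subtype.ext h5
    rw [this, map_one]
  rw [map_pow] at h6
  have h7 : orderOf (π d) ∣ (H.subgroupOf N).index := orderOf_dvd_of_pow_eq_one h6
  have h8 : orderOf (π d) ∣ Nat.card H := orderOf_dvd_natCard _
  have h9 := Nat.dvd_gcd h8 h7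
  rw [Nat.coprime_iff_gcd_eq_one.mp hHall, Nat.dvd_one, orderOf_eq_one_iff] at h9
  exact h9

theorem ti_normal_complement {H : Subgroup G} (hTI : Cfsg.IsTISubset (H : Set G))
    (hHall : (Nat.card H).Coprime (H.subgroupOf (normalizer (H : Set G))).index)
    (K : Subgroup (normalizer (H : Set G))) (hK : K.Normal)
    (hc : K.IsComplement' (H.subgroupOf (normalizer (H : Set G)))) :
    ∃ M : Subgroup G, M.Normal ∧ IsComplement' M H :=
  ti_normal_complement_aux rfl hTI hHall K hK hc

/-- `H`-invariant Sylow subgroups of a normal complement -/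
theorem exists_invariant_sylow_TI {H M : Subgroup G} (hTI : Cfsg.IsTISubset (H : Set G))
    (hHall : (Nat.card H).Coprime H.index) (hM : M.Normal) (hc : IsComplement' M H) (p : ℕ) [Fact p.Prime] :
    ∃ P : Sylow p M, H ≤ normalizer (((P : Subgroup M).map M.subtype : Subgroup G) : Set G) := by
  obtain ⟨P⟩ := (inferInstance : Nonempty (Sylow p M))
  set P' : Subgroup G := (P : Subgroup M).map M.subtype with hP'
  have hP'M : P' ≤ M := map_subtype_le _
  have hfr : normalizer (P' : Set G) ⊔ M = ⊤ := Sylow.normalizer_sup_eq_top P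
  set L : Subgroup G := normalizer (P' : Set G) with hL
  have hML : M ⊓ L ≤ L := inf_le_right
  have hLn : L ≤ normalizer ((M ⊓ L : Subgroup G) : Set G) := by
    refine le_trans ?_ inf_normalizer_le_normalizer_inf
    exact le_inf (by rw [normalizer_eq_top]; exact le_top) le_normalizer
  have hidx : H.index = Nat.card M := hc.index_eq_card
  have hidx2 : M.index = Nat.card H := hc.symm.index_eq_card
  have hrel : (M ⊓ L).relIndex L = Nat.card H := by
    rw [inf_relIndex_right, ← hidx2]
    have h1 : M.relIndex (L ⊔ M) = M.relIndex L := relIndex_sup_right L M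
    rw [← h1, hfr, relIndex_top_right]
  have hcop : (Nat.card (M ⊓ L : Subgroup G)).Coprime ((M ⊓ L).relIndex L) := by
    rw [hrel]
    rw [hidx] at hHall
    exact (hHall.coprime_dvd_right (card_dvd_of_le inf_le_left)).symm
  obtain ⟨H₁, hH₁L, hH₁c, -, -⟩ := CfsgLib.Coprime.sz_exists hML hLn hcop
  rw [hrel] at hH₁c
  obtain ⟨g, hg⟩ := Cfsg.Agent.S4116.result H hHall hTI H₁ (fun q _ hq => by rwa [hH₁c] at hq)
  have hg' : H₁ = H.map (MulAut.conj g).toMonoidHom := by
    apply eq_of_le_of_card_ge hg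
    rw [hH₁c, card_map_of_injective (MulAut.conj g).injective]
  -- replace P by its conjugate by g⁻¹
  have hcard : Nat.card (MulAut.conj g⁻¹ • P' : Subgroup G) = Nat.card P := by
    rw [CfsgLib.Coprime.card_conj_smul, hP', card_map_of_injective M.subtype_injective]
  have hle : (MulAut.conj g⁻¹ • P' : Subgroup G) ≤ M := by
    intro x hx
    rw [CfsgLib.Frob6.mem_conj, inv_inv] at hx
    have h1 := hM.conj_mem _ (hP'M hx) g⁻¹
    have h2 : g⁻¹ * (g * x * g⁻¹) * g⁻¹⁻¹ = x := by group
    rwa [h2] at h1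
  obtain ⟨Q, hQ⟩ := CfsgLib.Coprime.exists_sylow_of_card hle P hcard
  refine ⟨Q, ?_⟩
  rw [hQ]
  intro h hh
  have h1 : g * h * g⁻¹ ∈ H₁ := by
    rw [hg']
    exact ⟨h, hh, rfl⟩
  have h2 := hH₁L h1
  rw [mem_normalizer_iff] at h2 ⊢
  intro x
  rw [CfsgLib.Frob6.mem_conj, CfsgLib.Frob6.mem_conj, inv_inv, h2]
  have : g * h * g⁻¹ * (g * x * g⁻¹) * (g * h * g⁻¹)⁻¹ = g * (h * x * h⁻¹) * g⁻¹ := by group
  rw [this]

end CfsgLib.H6
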