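import Cfsg.Agent.LibH6TI

set_option autoImplicit false

namespace CfsgLib.H6

open Subgroup
open scoped Pointwise

variable {G : Type*} [Group G] [Finite G]

/-- the largest normal subgroup of order coprime to `n` -/
theorem exists_coprime_core (G : Type*) [Group G] [Finite G] (n : ℕ) : ∃ O : Subgroup G, O.Normal ∧ (Nat.card O).Coprime n ∧
    ∀ K : Subgroup G, K.Normal → (Nat.card K).Coprime n → K ≤ O := by
  classical
  obtain ⟨O, hO, hmax⟩ := Set.exists_max_image {K : Subgroup G | K.Normal ∧ (Nat.card K).Coprime n}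
    (fun K => Nat.card K) (Set.toFinite _) ⟨⊥, ⟨inferInstance, by rw [Subgroup.card_bot]; exact Nat.coprime_one_left n⟩⟩
  refine ⟨O, hO.1, hO.2, fun K hK hKn => ?_⟩
  have hO1 := hO.1
  have h1 := CfsgLib.SolvBasic.card_sup_of_normal K O
  have h2 : (Nat.card (K ⊔ O : Subgroup G)).Coprime n := by
    have h3 : Nat.card (K ⊔ O : Subgroup G) ∣ Nat.card K * Nat.card O := by rw [← h1]; exact dvd_mul_right _ _
    exact (hKn.mul_left hO.2).coprime_dvd_left h3
  have h4 := hmax (K ⊔ O) ⟨inferInstance, h2⟩
  have h5 : O = K ⊔ O := eq_of_le_of_card_ge le_sup_right h4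
  rw [h5]; exact le_sup_left

/-- `π`-separable groups with a TI subgroup that is Hall in its normalizer: `G = O_{π'}(G) N_G(H)` -/
theorem ti_piSeparable {H : Subgroup G} (hTI : Cfsg.IsTISubset (H : Set G)) (hnn : ¬ H.Normal)
    (hHall : (Nat.card H).Coprime (H.subgroupOf (Subgroup.normalizer (H : Set G))).index)
    (hsep : ∃ (n : ℕ) (M : Fin (n + 1) → Subgroup G), M 0 = ⊥ ∧ M (Fin.last n) = ⊤ ∧ Monotone M ∧ (∀ i, (M i).Normal) ∧
      ∀ i : Fin n, (∀ q : ℕ, q.Prime → q ∣ (M i.castSucc).relIndex (M i.succ) → q ∣ Nat.card H) ∨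
        ((M i.castSucc).relIndex (M i.succ)).Coprime (Nat.card H))
    {O : Subgroup G} (hOn : O.Normal) (hOc : (Nat.card O).Coprime (Nat.card H))
    (hOmax : ∀ K : Subgroup G, K.Normal → (Nat.card K).Coprime (Nat.card H) → K ≤ O) :
    O ⊔ normalizer (H : Set G) = ⊤ ∧ (O ⊔ H).Normal := by
  classical
  have hHallG := hall_of_TI hTI hHall
  have hH1 : H ≠ ⊥ := by
    rintro rfl
    exact hnn inferInstance
  have hmain : O ⊔ normalizer (H : Set G) = ⊤ := by
    obtain ⟨n, M, hM0, hMn, hMm, hMN, hMf⟩ := hsep
    obtain ⟨i, hi1, hi2⟩ : ∃ i : Fin n, M i.castSucc ≤ O ∧ ¬ M i.succ ≤ O := by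
      by_contra hno
      push Not at hno
      have hall : ∀ i : Fin (n + 1), M i ≤ O := by
        intro i
        induction i using Fin.induction with
        | zero => rw [hM0]; exact bot_le
        | succ i ih => exact hno i ih
      have h1 := hall (Fin.last n)
      rw [hMn, top_le_iff] at h1
      have h2 : Nat.card H ∣ Nat.card O := by
        rw [h1, card_top]; exact card_subgroup_dvd_card H
      have h3 := Nat.Coprime.eq_one_of_dvd hOc.symm h2
      exact hH1 (card_eq_one.mp h3)
    have hM₁ := hMN i.succ
    set T : Subgroup G := M i.succ ⊔ O with hT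
    have hTn : T.Normal := inferInstance
    have hTO : T ≠ O := by
      intro h
      apply hi2
      rw [← h]; exact le_sup_left
    have hOT : O ≤ T := le_sup_right
    have hrel : O.relIndex T ∣ (M i.castSucc).relIndex (M i.succ) := by
      rw [hT, relIndex_sup_right]
      exact relIndex_dvd_of_le_left _ hi1
    have hcT : Nat.card O * O.relIndex T = Nat.card T := CfsgLib.Coprime.card_mul_relIndex hOT
    rcases hMf i with hpi | hpi'
    · -- π-factor
      have hrel1 : O.relIndex T ≠ 1 := by
        intro h
        rw [relIndex_eq_one] at h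
        exact hTO (le_antisymm h hOT)
      obtain ⟨q, hq, hqd⟩ := Nat.exists_prime_and_dvd hrel1
      have hqH : q ∣ Nat.card H := hpi q hq (hqd.trans hrel)
      have hqT : q ∣ Nat.card T := by rw [← hcT]; exact hqd.mul_left _
      have := Fact.mk hq
      obtain ⟨S⟩ := (inferInstance : Nonempty (Sylow q T))
      set S' : Subgroup G := (S : Subgroup T).map T.subtype with hS'
      have hS'T : S' ≤ T := map_subtype_le _
      have hS'p : IsPGroup q S' := S.isPGroup'.map _
      obtain ⟨g, hg⟩ := Cfsg.Agent.S4116.result H hHallG hTI S' (fun r hr hrd => by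
        obtain ⟨k, hk⟩ := IsPGroup.iff_card.mp hS'p
        rw [hk] at hrd
        rw [(Nat.prime_dvd_prime_iff_eq hr hq).mp (hr.dvd_of_dvd_pow hrd)]
        exact hqH)
      have hcard : Nat.card (MulAut.conj g⁻¹ • S' : Subgroup G) = Nat.card S := by
        rw [CfsgLib.Coprime.card_conj_smul, hS', card_map_of_injective T.subtype_injective]
      have hle : (MulAut.conj g⁻¹ • S' : Subgroup G) ≤ T := by
        intro x hx
        rw [CfsgLib.Frob6.mem_conj, inv_inv] at hx
        have h1 := hTn.conj_mem _ (hS'T hx) g⁻¹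
        have h2 : g⁻¹ * (g * x * g⁻¹) * g⁻¹⁻¹ = x := by group
        rwa [h2] at h1
      obtain ⟨P, hP⟩ := CfsgLib.Coprime.exists_sylow_of_card hle S hcard
      have hPH : (P : Subgroup T).map T.subtype ≤ H := by
        rw [hP]
        intro x hx
        rw [CfsgLib.Frob6.mem_conj, inv_inv] at hx
        obtain ⟨h, hh, hh2⟩ := hg hx
        have h3 : g * h * g⁻¹ = g * x * g⁻¹ := hh2
        have h4 : h = x := by simpa using h3
        rw [← h4]; exact hh
      have hP1 : (P : Subgroup T).map T.subtype ≠ ⊥ := by
        intro h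
        apply Sylow.ne_bot_of_dvd_card P hqT
        rw [Subgroup.map_eq_bot_iff, ker_subtype, le_bot_iff] at h
        exact h
      have hfr := Sylow.normalizer_sup_eq_top P
      have hnN := normalizer_le_of_TI hTI hPH hP1
      -- T ≤ O ⊔ H
      set X : Subgroup G := O ⊔ H with hX
      have hTX : T ≤ X := by
        rw [← relIndex_eq_one]
        by_contra hne
        obtain ⟨r, hr, hrd⟩ := Nat.exists_prime_and_dvd hne
        have h1 : r ∣ Nat.card H :=
          hpi r hr (hrd.trans ((relIndex_dvd_of_le_left _ (le_sup_left : O ≤ X)).trans hrel))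
        have h2 : X.relIndex T ∣ H.index := by
          have e1 := CfsgLib.SolvBasic.card_sup_of_normal T X
          have e2 : Nat.card (T ⊓ X : Subgroup G) * X.relIndex T = Nat.card T := by
            have := CfsgLib.Coprime.card_mul_relIndex (inf_le_left : T ⊓ X ≤ T)
            rwa [inf_comm, inf_relIndex_right, inf_comm] at this
          have e3 : Nat.card (T ⊔ X : Subgroup G) = X.relIndex T * Nat.card X := by
            have : Nat.card (T ⊓ X : Subgroup G) * Nat.card (T ⊔ X : Subgroup G) =
                Nat.card (T ⊓ X : Subgroup G) * (X.relIndex T * Nat.card X) := by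
              calc _ = Nat.card (T ⊔ X : Subgroup G) * Nat.card (T ⊓ X : Subgroup G) := mul_comm _ _
                _ = Nat.card T * Nat.card X := e1
                _ = _ := by rw [← e2]; ring
            exact Nat.eq_of_mul_eq_mul_left Nat.card_pos this
          have e4 : X.relIndex T ∣ X.index := by
            have h5 : Nat.card (T ⊔ X : Subgroup G) ∣ Nat.card G := card_subgroup_dvd_card _
            rw [e3, ← X.index_mul_card] at h5
            exact Nat.dvd_of_mul_dvd_mul_right Nat.card_pos h5
          exact e4.trans (index_dvd_of_le le_sup_right)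
        have h3 := Nat.dvd_gcd h1 (hrd.trans h2)
        rw [Nat.coprime_iff_gcd_eq_one.mp hHallG, Nat.dvd_one] at h3
        exact hr.one_lt.ne' h3
      rw [eq_top_iff, ← hfr]
      apply sup_le
      · exact hnN.trans le_sup_right
      · apply hTX.trans
        exact sup_le_sup_left le_normalizer O
    · exfalso
      apply hTO
      apply le_antisymm _ hOT
      apply hOmax T hTn
      rw [← hcT]
      exact hOc.mul_left (hpi'.coprime_dvd_left hrel)
  refine ⟨hmain, ?_⟩
  rw [← normalizer_eq_top_iff, eq_top_iff, ← hmain]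
  apply sup_le
  · exact (le_sup_left : O ≤ O ⊔ H).trans le_normalizer
  · refine le_trans (le_inf ?_ le_rfl) (normalizer_inf_normalizer_le_normalizer_sup _ _)
    have h1 : normalizer (O : Set G) = ⊤ := normalizer_eq_top_iff.mpr hOn
    rw [h1]; exact le_top

end CfsgLib.H6
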