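import Mathlib

set_option autoImplicit false

/-! Groups of order 7920 (part 1: the case of a subgroup of index two) -/

namespace CfsgLib.H6T

open Subgroup

universe u

theorem sylow_eq {N : Type u} [Group N] [Finite N] {p : ℕ} [Fact p.Prime] (P Q : Sylow p N)
    (h : (P : Subgroup N) ≤ normalizer ((Q : Subgroup N) : Set N)) : Q = P := by
  have h1 := P.isPGroup'.inf_normalizer_sylow Q
  have h2 : (P : Subgroup N) ≤ (Q : Subgroup N) := by
    have : (P : Subgroup N) ⊓ normalizer ((Q : Subgroup N) : Set N) = (P : Subgroup N) := inf_eq_left.2 h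
    exact inf_eq_left.1 (h1.symm.trans this)
  exact Sylow.ext (P.is_maximal' Q.isPGroup' h2)

/-- sign of an involution -/
theorem sign_inv {Ω : Type u} [Fintype Ω] [DecidableEq Ω] (σ : Equiv.Perm Ω) (h1 : σ ≠ 1) (h2 : σ ^ 2 = 1) {n : ℕ}
    (hn : σ.support.card = 2 * n) : Equiv.Perm.sign σ = (-1) ^ n := by
  have ho : orderOf σ = 2 := orderOf_eq_prime h2 h1
  obtain ⟨m, hm⟩ := Equiv.Perm.cycleType_prime_order (σ := σ) (by rw [ho]; exact Nat.prime_two)
  rw [Equiv.Perm.sign_of_cycleType, hm, ho]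
  have h3 := Equiv.Perm.sum_cycleType σ
  rw [hm, ho, hn] at h3
  simp only [Multiset.sum_replicate, Multiset.card_replicate, smul_eq_mul] at h3 ⊢
  have h4 : m + 1 = n := by omega
  rw [h4, pow_add, mul_comm n 2, pow_mul]
  simp

theorem sign_four {Ω : Type u} [Fintype Ω] [DecidableEq Ω] (σ : Equiv.Perm Ω) (h1 : σ ^ 4 = 1) {n : ℕ}
    (hfix : ∀ a b : Ω, (σ ^ 2) a = a → (σ ^ 2) b = b → a = b)
    (hn : σ.support.card = 4 * n) : Equiv.Perm.sign σ = (-1) ^ n := by
  have h3 : ∀ m ∈ σ.cycleType, m = 4 := by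
    intro m hm
    have h4 : m ∣ 4 := (Equiv.Perm.dvd_of_mem_cycleType hm).trans (orderOf_dvd_of_pow_eq_one h1)
    have h5 : 2 ≤ m := Equiv.Perm.two_le_of_mem_cycleType hm
    have h6 : m ≤ 4 := Nat.le_of_dvd (by norm_num) h4
    by_contra h7
    have h8 : m = 2 := by
      interval_cases m
      · rfl
      · omega
      · omega
    subst h8
    rw [Equiv.Perm.cycleType_def, Multiset.mem_map] at hm
    obtain ⟨c, hc, hc2⟩ := hm
    rw [Finset.mem_val] at hc
    have hcy : c.IsCycle := (Equiv.Perm.mem_cycleFactorsFinset_iff.1 hc).1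
    have hco : orderOf c = 2 := by rw [hcy.orderOf]; exact hc2
    have hne : c.support.Nonempty := by
      rw [← Finset.card_pos]
      have : c.support.card = 2 := hc2
      omega
    obtain ⟨a, ha⟩ := hne
    have hca : c a = σ a := (Equiv.Perm.mem_cycleFactorsFinset_iff.1 hc).2 a ha
    have hb : c a ∈ c.support := by rw [Equiv.Perm.apply_mem_support]; exact ha
    have hcb : c (c a) = σ (c a) := (Equiv.Perm.mem_cycleFactorsFinset_iff.1 hc).2 _ hb
    have hcc : c (c a) = a := by
      have := pow_orderOf_eq_one c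
      rw [hco] at this
      have h9 := congrArg (fun τ : Equiv.Perm Ω => τ a) this
      simpa [pow_two] using h9
    have e1 : (σ ^ 2) a = a := by
      rw [pow_two, Equiv.Perm.mul_apply, ← hca, ← hcb, hcc]
    have e2 : (σ ^ 2) (c a) = c a := by
      rw [pow_two, Equiv.Perm.mul_apply, ← hcb, hcc, ← hca]
    have e3 := hfix _ _ e1 e2
    exact (Equiv.Perm.mem_support.1 ha) e3.symm
  have h5 : σ.cycleType = Multiset.replicate (Multiset.card σ.cycleType) 4 := Multiset.eq_replicate.2 ⟨rfl, h3⟩
  have h6 := Equiv.Perm.sum_cycleType σ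
  rw [Equiv.Perm.sign_of_cycleType, h6, hn]
  rw [h5, hn] at h6
  simp only [Multiset.sum_replicate, smul_eq_mul] at h6
  have h7 : Multiset.card σ.cycleType = n := by omega
  rw [h7, pow_add, pow_mul]
  norm_num

/-- a group of order 8 with a central involution that is not a square is commutative -/
theorem comm_of {S : Type u} [Group S] [Finite S] (hS : Nat.card S = 8) (t : S) (ht : t ≠ 1) (ht2 : t ^ 2 = 1)
    (hc : ∀ s : S, s * t = t * s) (hsq : ∀ s : S, s ^ 2 ≠ t) : ∀ a b : S, a * b = b * a := by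
  haveI : Fact (Nat.Prime 2) := ⟨Nat.prime_two⟩
  by_contra hna
  have hp : IsPGroup 2 S := IsPGroup.of_card (n := 3) (by rw [hS]; norm_num)
  -- some element of order 4
  have h4 : ∃ g : S, orderOf g = 4 := by
    by_contra h
    push Not at h
    apply hna
    have h1 : ∀ g : S, g * g = 1 := by
      intro g
      have h2 : orderOf g ∣ 8 := hS ▸ orderOf_dvd_natCard g
      have h3 : orderOf g ≠ 8 := by
        intro h8
        apply hna
        haveI : IsCyclic S := isCyclic_of_orderOf_eq_card g (by rw [h8, hS])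
        exact fun a b => mul_comm' a b
      have h5 : orderOf g ≤ 8 := Nat.le_of_dvd (by norm_num) h2
      have h6 := h g
      have h7 : orderOf g ∣ 2 := by
        interval_cases (orderOf g) <;> first | omega | norm_num at *
      rw [← pow_two]
      exact orderOf_dvd_iff_pow_eq_one.1 h7
    intro a b
    have e1 := h1 (a * b)
    have e2 : (a * b) = (a * b)⁻¹ := (inv_eq_of_mul_eq_one_right e1).symm
    have e3 : a⁻¹ = a := inv_eq_of_mul_eq_one_right (h1 a)
    have e4 : b⁻¹ = b := inv_eq_of_mul_eq_one_right (h1 b)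
    rw [e2, mul_inv_rev, e3, e4]
  obtain ⟨g, hg⟩ := h4
  have hidx : (zpowers g).index = 2 := by
    have := (zpowers g).card_mul_index
    rw [Nat.card_zpowers, hg, hS] at this
    omega
  haveI : (zpowers g).Normal := Subgroup.normal_of_index_eq_two hidx
  have htn : t ∉ zpowers g := by
    intro h
    obtain ⟨k, hk⟩ := mem_zpowers_iff.1 h
    have h1 : g ^ (k * 2) = 1 := by
      rw [zpow_mul, hk]
      exact_mod_cast ht2
    have h2 : (4 : ℤ) ∣ k * 2 := by
      have := orderOf_dvd_iff_zpow_eq_one.2 h1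
      rw [hg] at this
      exact_mod_cast this
    obtain ⟨j, hj⟩ : (2 : ℤ) ∣ k := by omega
    apply hsq (g ^ j)
    rw [← hk, hj, mul_comm 2 j, zpow_mul]
    norm_cast
  have hH : ∀ a : S, a ∉ zpowers g → a * t ∈ zpowers g := by
    intro a ha
    rw [Subgroup.mul_mem_iff_of_index_two hidx]
    exact ⟨fun h => absurd h ha, fun h => absurd h htn⟩
  have hcg : ∀ a : S, a * g = g * a := by
    intro a
    by_cases ha : a ∈ zpowers g
    · obtain ⟨k, rfl⟩ := mem_zpowers_iff.1 ha
      rw [← zpow_add_one, ← zpow_one_add, add_comm]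
    · obtain ⟨k, hk⟩ := mem_zpowers_iff.1 (hH a ha)
      have h1 : a = g ^ k * t⁻¹ := by rw [hk]; group
      have h2 : t⁻¹ * g = g * t⁻¹ := by
        have := hc g
        rw [inv_mul_eq_iff_eq_mul, ← mul_assoc, ← this, mul_assoc, mul_inv_cancel, mul_one]
      rw [h1, mul_assoc, h2, ← mul_assoc, ← mul_assoc, ← zpow_add_one, ← zpow_one_add, add_comm]
  have hcg' : ∀ a b : S, b ∈ zpowers g → a * b = b * a := by
    intro a b hb
    obtain ⟨k, rfl⟩ := mem_zpowers_iff.1 hb
    exact (Commute.zpow_right (hcg a) k)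
  apply hna
  intro a b
  by_cases hb : b ∈ zpowers g
  · exact hcg' a b hb
  · have h1 := hcg' a _ (hH b hb)
    have h2 : a * b * t = b * a * t := by
      rw [mul_assoc, h1, mul_assoc, ← hc a, mul_assoc]
    exact mul_right_cancel h2

end CfsgLib.H6T
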