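import Cfsg.Agent.LibH6Ta

set_option autoImplicit false

/-! Groups of order 7920 (part 2: the case of a subgroup of index two) -/

namespace CfsgLib.H6T

open Subgroup

universe u

theorem finalN {N : Type u} [Group N] [Finite N] (hN : Nat.card N = 3960)
    (hperf : _root_.commutator N = ⊤)
    (P : Sylow 11 N) (h1 : Nat.card (normalizer ((P : Subgroup N) : Set N)) = 88)
    (h2 : Nat.card (centralizer ((P : Subgroup N) : Set N)) = 44)
    (hcore : ∀ t : N, (∀ Q : Sylow 11 N, t ∈ normalizer ((Q : Subgroup N) : Set N)) → t = 1) : False := by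
  classical
  haveI : Fact (Nat.Prime 11) := ⟨by norm_num⟩
  haveI : Fact (Nat.Prime 2) := ⟨Nat.prime_two⟩
  have hPc : Nat.card P = 11 := by
    rw [P.card_eq_multiplicity, hN]
    have : (3960 : ℕ).factorization 11 = 1 := by
      rw [show (3960 : ℕ) = 11 * 360 by norm_num, Nat.factorization_mul (by norm_num) (by norm_num)]
      simp [Nat.Prime.factorization_self (show Nat.Prime 11 by norm_num), Nat.factorization_eq_zero_of_not_dvd (show ¬ 11 ∣ 360 by norm_num)]
    rw [this, pow_one]
  have htriv : ∀ {A : Type u} [CommGroup A] (f : N →* A) (g : N), f g = 1 := by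
    intro A _ f g
    have h3 := Abelianization.commutator_subset_ker f
    rw [hperf] at h3
    exact h3 (mem_top g)
  have htriv0 : ∀ (f : N →* ℤˣ) (g : N), f g = 1 := by
    intro f g
    have h3 := Abelianization.commutator_subset_ker f
    rw [hperf] at h3
    exact h3 (mem_top g)
  set M := normalizer ((P : Subgroup N) : Set N) with hM
  set C := centralizer ((P : Subgroup N) : Set N) with hC
  have hPM : (P : Subgroup N) ≤ M := le_normalizer
  have hPC : ∀ x ∈ (P : Subgroup N), x ∈ C := by
    haveI : IsCyclic P := isCyclic_of_prime_card hPc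
    intro x hx
    rw [hC, mem_centralizer_iff]
    intro y hy
    have := mul_comm' (⟨y, hy⟩ : P) ⟨x, hx⟩
    exact congrArg Subtype.val this
  have hCM : ∀ s ∈ M, ∀ x ∈ C, s * x * s⁻¹ ∈ C := by
    intro s hs x hx
    rw [hC, mem_centralizer_iff] at hx ⊢
    intro y hy
    have h3 : s⁻¹ * y * s ∈ (P : Subgroup N) := by
      have := (mem_normalizer_iff.1 (inv_mem hs) y).1 hy
      simpa using this
    have h4 := hx _ h3
    calc y * (s * x * s⁻¹) = s * ((s⁻¹ * y * s) * x) * s⁻¹ := by group
      _ = s * (x * (s⁻¹ * y * s)) * s⁻¹ := by rw [h4]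
      _ = s * x * s⁻¹ * y := by group
  -- a subgroup of order 8
  obtain ⟨S0, hS0⟩ := Sylow.exists_subgroup_card_pow_prime (G := M) 2 (n := 3) (by rw [h1]; norm_num)
  set S := S0.map M.subtype with hS
  have hSc : Nat.card S = 8 := by
    rw [hS, Subgroup.card_map_of_injective M.subtype_injective, hS0]; norm_num
  have hSM : S ≤ M := map_subtype_le _
  have hSp : IsPGroup 2 S := IsPGroup.of_card (n := 3) (by rw [hSc]; norm_num)
  -- the fixed point
  let X := {x : N // x ∈ C ∧ x ∉ (P : Subgroup N)}
  have hXc : Nat.card X = 33 := by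
    have e1 : Nat.card X + Nat.card P = Nat.card C := by
      have e2 : Nat.card X = Set.ncard ((C : Set N) \ ((P : Subgroup N) : Set N)) := rfl
      rw [e2]
      have e3 : Nat.card P = Set.ncard (((P : Subgroup N) : Set N)) := rfl
      have e4 : Nat.card C = Set.ncard ((C : Set N)) := rfl
      rw [e3, e4]
      exact Set.ncard_sdiff_add_ncard_of_subset (fun x hx => hPC x hx)
    rw [hPc, h2] at e1
    omega
  letI act : MulAction S X :=
    { smul := fun s x => ⟨s * x.1 * (s : N)⁻¹, hCM s (hSM s.2) _ x.2.1, fun h => x.2.2 ((mem_normalizer_iff.1 (hSM s.2) _).2 h)⟩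
      one_smul := fun x => Subtype.ext (by change (1 : N) * x.1 * (1 : N)⁻¹ = x.1; group)
      mul_smul := fun a b x => Subtype.ext (by
        change ((a : N) * b) * x.1 * ((a : N) * b)⁻¹ = a * (b * x.1 * (b : N)⁻¹) * (a : N)⁻¹; group) }
  obtain ⟨⟨x, hxC, hxP⟩, hx⟩ := hSp.nonempty_fixed_point_of_prime_not_dvd_card X (by rw [hXc]; norm_num)
  have hxS : ∀ s ∈ S, s * x * s⁻¹ = x := fun s hs => congrArg Subtype.val (hx ⟨s, hs⟩)
  -- the order of x is even
  have hxo : orderOf x ∣ 44 := by
    have : orderOf (⟨x, hxC⟩ : C) ∣ 44 := h2 ▸ orderOf_dvd_natCard _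
    rwa [← Subgroup.orderOf_coe] at this
  have hxM : x ∈ M := by
    rw [hM, mem_normalizer_iff]
    intro y
    have hy : ∀ y ∈ (P : Subgroup N), x * y * x⁻¹ = y := by
      intro y hy
      rw [← (mem_centralizer_iff.1 hxC) y hy]; group
    constructor
    · intro h; rw [hy y h]; exact h
    · intro h
      have h3 := hy _ h
      have h4 : x * y * x⁻¹ = y := by
        have h5 : x * (x * y * x⁻¹) * x⁻¹ = x * y * x⁻¹ := h3
        have h6 := mul_right_cancel h5
        exact mul_left_cancel h6
      rw [← h4]; exact h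
  have hxe : 2 ∣ orderOf x := by
    by_contra hodd
    have h3 : orderOf x ∣ 11 := by
      have h4 : Nat.Coprime (orderOf x) 4 := by
        have : Nat.Coprime (orderOf x) 2 := ((Nat.Prime.coprime_iff_not_dvd Nat.prime_two).2 hodd).symm
        exact Nat.Coprime.pow_right 2 this
      exact h4.dvd_of_dvd_mul_left (by rw [show (4 * 11 : ℕ) = 44 by norm_num]; exact hxo)
    have h5 : IsPGroup 11 (zpowers x) := by
      rcases (Nat.dvd_prime (by norm_num)).1 h3 with h | h
      · exact IsPGroup.of_card (n := 0) (by rw [Nat.card_zpowers, h]; norm_num)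
      · exact IsPGroup.of_card (n := 1) (by rw [Nat.card_zpowers, h]; norm_num)
    have h6 := h5.inf_normalizer_sylow P
    have h7 : x ∈ zpowers x ⊓ (P : Subgroup N) := by
      have h8 : x ∈ zpowers x ⊓ M := mem_inf.2 ⟨mem_zpowers x, hxM⟩
      exact h6 ▸ h8
    exact hxP (mem_inf.1 h7).2
  obtain ⟨m, hm⟩ := hxe
  set t := x ^ m with ht
  have hm0 : 0 < m := by
    have := orderOf_pos x
    omega
  have hto : orderOf t = 2 := by
    rw [ht, orderOf_pow_of_dvd (by omega) ⟨2, by rw [hm]; ring⟩, hm]
    exact Nat.mul_div_cancel _ hm0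
  have ht1 : t ≠ 1 := by intro h; rw [h, orderOf_one] at hto; omega
  have ht2 : t ^ 2 = 1 := hto ▸ pow_orderOf_eq_one t
  -- t is central in M
  have htM : ∀ s ∈ M, s * t = t * s := by
    let D := centralizer ({t} : Set N) ⊓ M
    have hD : D ≤ M := inf_le_right
    have d1 : (P : Subgroup N) ≤ D := by
      intro y hy
      refine mem_inf.2 ⟨?_, hPM hy⟩
      rw [mem_centralizer_singleton_iff]
      exact (Commute.pow_right ((mem_centralizer_iff.1 hxC) y hy) m)
    have d2 : S ≤ D := by
      intro y hy
      refine mem_inf.2 ⟨?_, hSM hy⟩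
      rw [mem_centralizer_singleton_iff]
      have : y * x = x * y := by
        have := hxS y hy
        rw [mul_inv_eq_iff_eq_mul] at this
        exact this
      exact (Commute.pow_right this m)
    have d3 : 11 ∣ Nat.card D := hPc ▸ Subgroup.card_dvd_of_le d1
    have d4 : 8 ∣ Nat.card D := hSc ▸ Subgroup.card_dvd_of_le d2
    have d5 : Nat.card D ∣ 88 := h1 ▸ Subgroup.card_dvd_of_le hD
    have d6 : 88 ∣ Nat.card D := by
      have := Nat.Coprime.mul_dvd_of_dvd_of_dvd (show Nat.Coprime 11 8 by norm_num) d3 d4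
      exact this
    have d7 : D = M := Subgroup.eq_of_le_of_card_ge hD (by rw [h1]; exact Nat.le_of_dvd Nat.card_pos d6)
    intro s hs
    rw [← d7] at hs
    exact mem_centralizer_singleton_iff.1 (mem_inf.1 hs).1
  have htm : t ∈ M := pow_mem hxM m
  have hΩ : Nat.card (Sylow 11 N) = 45 := by
    rw [P.card_eq_index_normalizer]
    have h3 : Nat.card (normalizer (P : Set N)) * (normalizer (P : Set N)).index = Nat.card N := card_mul_index _
    have h4 : Nat.card (normalizer (P : Set N)) = 88 := h1
    rw [hN, h4] at h3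
    omega
  have htC : t ∈ C := pow_mem hxC m
  -- fixed points
  let F := {Q : Sylow 11 N // t ∈ normalizer ((Q : Subgroup N) : Set N)}
  have hFP : ∀ Q : Sylow 11 N, t ∈ normalizer ((Q : Subgroup N) : Set N) ↔ t • Q = Q :=
    fun Q => (Sylow.smul_eq_iff_mem_normalizer).symm
  have m11 : Nat.card F ≡ 1 [MOD 11] := by
    letI act2 : MulAction P F :=
      { smul := fun y Q => ⟨(y : N) • Q.1, by
          rw [hFP]
          have h3 := (hFP Q.1).1 Q.2
          have h4 : t * (y : N) = y * t := (mem_centralizer_iff.1 htC y y.2).symm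
          rw [← mul_smul, h4, mul_smul, h3]⟩
        one_smul := fun Q => Subtype.ext (one_smul N Q.1)
        mul_smul := fun a b Q => Subtype.ext (mul_smul (a : N) (b : N) Q.1) }
    have h3 := P.isPGroup'.card_modEq_card_fixedPoints F
    have h4 : Nat.card (MulAction.fixedPoints P F) = 1 := by
      rw [Nat.card_eq_one_iff_unique]
      refine ⟨⟨fun a b => ?_⟩, ⟨⟨⟨P, htm⟩, ?_⟩⟩⟩
      · have key : ∀ c : MulAction.fixedPoints P F, c.1.1 = P := by
          intro c
          apply sylow_eq P
          intro y hy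
          have := congrArg Subtype.val (c.2 ⟨y, hy⟩)
          exact Sylow.smul_eq_iff_mem_normalizer.1 this
        exact Subtype.ext (Subtype.ext ((key a).trans (key b).symm))
      · intro y
        apply Subtype.ext
        exact Sylow.smul_eq_iff_mem_normalizer.2 (hPM y.2)
    rw [h4] at h3; exact h3
  have m2 : 45 ≡ Nat.card F [MOD 2] := by
    have hz : IsPGroup 2 (zpowers t) := IsPGroup.of_card (n := 1) (by rw [Nat.card_zpowers, hto]; norm_num)
    have h3 := hz.card_modEq_card_fixedPoints (Sylow 11 N)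
    have h4 : Nat.card (MulAction.fixedPoints (zpowers t) (Sylow 11 N)) = Nat.card F := by
      apply Nat.card_congr
      refine Equiv.subtypeEquivRight fun Q => ?_
      rw [hFP]
      constructor
      · intro h; exact h ⟨t, mem_zpowers t⟩
      · intro h y
        obtain ⟨y, hy⟩ := y
        obtain ⟨k, rfl⟩ := mem_zpowers_iff.1 hy
        have h5 : t ∈ MulAction.stabilizer N Q := h
        exact (zpow_mem h5 k)
    rw [h4, hΩ] at h3
    exact h3
  have hle : Nat.card F ≤ 45 := hΩ ▸ Nat.card_le_card_of_injective _ Subtype.val_injective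
  have hcases : Nat.card F = 1 ∨ Nat.card F = 23 ∨ Nat.card F = 45 := by
    unfold Nat.ModEq at m11 m2
    omega
  letI : Fintype (Sylow 11 N) := Fintype.ofFinite _
  let σ : N →* Equiv.Perm (Sylow 11 N) := MulAction.toPermHom N (Sylow 11 N)
  have hσ : ∀ (g : N) (Q : Sylow 11 N), σ g Q = g • Q := fun g Q => rfl
  have hsup : (σ t).support.card + Nat.card F = 45 := by
    have e1 : (σ t).support = Finset.univ.filter (fun Q : Sylow 11 N => ¬ (t ∈ normalizer ((Q : Subgroup N) : Set N))) := by
      ext Q
      rw [Equiv.Perm.mem_support, Finset.mem_filter, hFP, hσ]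
      simp
    have e2 : Nat.card F = (Finset.univ.filter (fun Q : Sylow 11 N => t ∈ normalizer ((Q : Subgroup N) : Set N))).card := by
      rw [Nat.card_eq_fintype_card]; exact Fintype.card_subtype _
    have e3 : Fintype.card (Sylow 11 N) = 45 := by rw [← Nat.card_eq_fintype_card, hΩ]
    rw [e1, e2, add_comm, Finset.card_filter_add_card_filter_not, Finset.card_univ, e3]
  have hσ1 : σ t ≠ 1 := by
    intro h
    apply ht1
    apply hcore
    intro Q
    rw [hFP, ← hσ, h]; rfl
  have hsign : ∀ g : N, Equiv.Perm.sign (σ g) = 1 := fun g => htriv0 (Equiv.Perm.sign.comp σ) g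
  rcases hcases with hF | hF | hF
  · -- one fixed point
    have huniq : ∀ Q : Sylow 11 N, t • Q = Q → Q = P := by
      intro Q hQ
      have h3 := Nat.card_eq_one_iff_unique.1 hF
      have h4 := h3.1.elim (⟨Q, (hFP Q).2 hQ⟩ : F) ⟨P, htm⟩
      exact congrArg Subtype.val h4
    have hsq : ∀ g : N, g ^ 2 ≠ t := by
      intro g hg
      have hgP : g • P = P := by
        apply huniq
        have h3 : t * g = g * t := by rw [← hg, ← pow_succ, ← pow_succ']
        rw [← mul_smul, h3, mul_smul, (hFP P).1 htm]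
      have h4 : (σ g).support = (σ t).support := by
        ext Q
        rw [Equiv.Perm.mem_support, Equiv.Perm.mem_support, hσ, hσ]
        apply not_congr
        constructor
        · intro h; rw [← hg, pow_two, mul_smul, h, h]
        · intro h; rw [huniq Q h]; exact hgP
      have h5 := sign_four (σ g) (n := 11) (by
          rw [← map_pow, show (4 : ℕ) = 2 * 2 by norm_num, pow_mul, hg, ht2, map_one]) (by
          intro a b ha hb
          rw [← map_pow, hg, hσ] at ha hb
          rw [huniq a ha, huniq b hb]) (by rw [h4]; omega)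
      rw [hsign g] at h5
      norm_num at h5
    have htS : t ∈ S := by
      have h3 : Nat.card S0 = 2 ^ (Nat.card M).factorization 2 := by
        rw [hS0, h1]
        have : (88 : ℕ).factorization 2 = 3 := by
          rw [show (88 : ℕ) = 2 ^ 3 * 11 by norm_num, Nat.factorization_mul (by norm_num) (by norm_num), Nat.factorization_pow]
          simp [Nat.Prime.factorization_self Nat.prime_two, Nat.factorization_eq_zero_of_not_dvd (show ¬ 2 ∣ 11 by norm_num)]
        rw [this]
      let R : Sylow 2 M := Sylow.ofCard S0 h3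
      have h4 : IsPGroup 2 (zpowers (⟨t, htm⟩ : M)) :=
        IsPGroup.of_card (n := 1) (by rw [Nat.card_zpowers, ← Subgroup.orderOf_coe, hto]; norm_num)
      have h5 := h4.inf_normalizer_sylow R
      have h6 : (⟨t, htm⟩ : M) ∈ zpowers (⟨t, htm⟩ : M) ⊓ normalizer ((R : Subgroup M) : Set M) := by
        refine mem_inf.2 ⟨mem_zpowers _, ?_⟩
        rw [mem_normalizer_iff]
        intro y
        have : (⟨t, htm⟩ : M) * y * (⟨t, htm⟩ : M)⁻¹ = y := by
          rw [mul_inv_eq_iff_eq_mul]
          exact Subtype.ext (htM y y.2).symm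
        rw [this]
      exact ⟨⟨t, htm⟩, (mem_inf.1 (h5.le h6)).2, rfl⟩
    have hcomm := comm_of (S := S) hSc ⟨t, htS⟩ (fun h => ht1 (congrArg Subtype.val h)) (Subtype.ext ht2)
      (fun s => Subtype.ext (htM s (hSM s.2))) (fun s h => hsq s (congrArg Subtype.val h))
    letI : CommGroup S := { (inferInstance : Group S) with mul_comm := hcomm }
    have hidx : S.index = 495 := by
      have := S.card_mul_index
      rw [hN, hSc] at this
      omega
    haveI : S.FiniteIndex := ⟨by rw [hidx]; norm_num⟩
    have key : ∀ (k : ℕ) (g₀ : N), g₀⁻¹ * t ^ k * g₀ ∈ S → g₀⁻¹ * t ^ k * g₀ = t ^ k := by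
      intro k g₀ hk
      rcases Nat.even_or_odd k with ⟨j, hj⟩ | ⟨j, hj⟩
      · rw [hj, ← two_mul, pow_mul, ht2, one_pow]; group
      · have h3 : t ^ k = t := by rw [hj, pow_add, pow_mul, ht2, one_pow, one_mul, pow_one]
        rw [h3] at hk ⊢
        have h4 : (g₀⁻¹ * t * g₀) • P = P := Sylow.smul_eq_iff_mem_normalizer.2 (hSM hk)
        have h5 : t • (g₀ • P) = g₀ • P := by
          rw [mul_smul, mul_smul, inv_smul_eq_iff] at h4
          exact h4
        have h6 : g₀ ∈ M := Sylow.smul_eq_iff_mem_normalizer.1 (huniq _ h5)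
        rw [mul_assoc, ← htM g₀ h6, inv_mul_cancel_left]
    have h7 := MonoidHom.transfer_eq_pow (MonoidHom.id S) t key
    rw [htriv] at h7
    have h8 := congrArg Subtype.val h7
    have h9 : (1 : N) = t ^ S.index := h8
    rw [hidx, show (495 : ℕ) = 2 * 247 + 1 by norm_num, pow_add, pow_mul, ht2, one_pow, one_mul, pow_one] at h9
    exact ht1 h9.symm
  · have h3 := sign_inv (σ t) hσ1 (by rw [← map_pow, ht2, map_one]) (n := 11) (by omega)
    rw [hsign t] at h3
    norm_num at h3
  · apply hσ1
    rw [← Equiv.Perm.card_support_eq_zero]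
    omega

theorem finalN2 {N : Type u} [Group N] [Finite N] (hN : Nat.card N = 1980)
    (hperf : _root_.commutator N = ⊤)
    (P : Sylow 11 N) (h1 : Nat.card (normalizer ((P : Subgroup N) : Set N)) = 44)
    (h2 : Nat.card (centralizer ((P : Subgroup N) : Set N)) = 22)
    (hcore : ∀ t : N, (∀ Q : Sylow 11 N, t ∈ normalizer ((Q : Subgroup N) : Set N)) → t = 1) : False := by
  classical
  haveI : Fact (Nat.Prime 11) := ⟨by norm_num⟩
  haveI : Fact (Nat.Prime 2) := ⟨Nat.prime_two⟩
  have hPc : Nat.card P = 11 := by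
    rw [P.card_eq_multiplicity, hN]
    have : (1980 : ℕ).factorization 11 = 1 := by
      rw [show (1980 : ℕ) = 11 * 180 by norm_num, Nat.factorization_mul (by norm_num) (by norm_num)]
      simp [Nat.Prime.factorization_self (show Nat.Prime 11 by norm_num), Nat.factorization_eq_zero_of_not_dvd (show ¬ 11 ∣ 180 by norm_num)]
    rw [this, pow_one]
  have htriv : ∀ {A : Type u} [CommGroup A] (f : N →* A) (g : N), f g = 1 := by
    intro A _ f g
    have h3 := Abelianization.commutator_subset_ker f
    rw [hperf] at h3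
    exact h3 (mem_top g)
  have htriv0 : ∀ (f : N →* ℤˣ) (g : N), f g = 1 := by
    intro f g
    have h3 := Abelianization.commutator_subset_ker f
    rw [hperf] at h3
    exact h3 (mem_top g)
  set M := normalizer ((P : Subgroup N) : Set N) with hM
  set C := centralizer ((P : Subgroup N) : Set N) with hC
  have hPM : (P : Subgroup N) ≤ M := le_normalizer
  have hPC : ∀ x ∈ (P : Subgroup N), x ∈ C := by
    haveI : IsCyclic P := isCyclic_of_prime_card hPc
    intro x hx
    rw [hC, mem_centralizer_iff]
    intro y hy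
    have := mul_comm' (⟨y, hy⟩ : P) ⟨x, hx⟩
    exact congrArg Subtype.val this
  have hCM : ∀ s ∈ M, ∀ x ∈ C, s * x * s⁻¹ ∈ C := by
    intro s hs x hx
    rw [hC, mem_centralizer_iff] at hx ⊢
    intro y hy
    have h3 : s⁻¹ * y * s ∈ (P : Subgroup N) := by
      have := (mem_normalizer_iff.1 (inv_mem hs) y).1 hy
      simpa using this
    have h4 := hx _ h3
    calc y * (s * x * s⁻¹) = s * ((s⁻¹ * y * s) * x) * s⁻¹ := by group
      _ = s * (x * (s⁻¹ * y * s)) * s⁻¹ := by rw [h4]
      _ = s * x * s⁻¹ * y := by group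
  -- a subgroup of order 8
  obtain ⟨S0, hS0⟩ := Sylow.exists_subgroup_card_pow_prime (G := M) 2 (n := 2) (by rw [h1]; norm_num)
  set S := S0.map M.subtype with hS
  have hSc : Nat.card S = 4 := by
    rw [hS, Subgroup.card_map_of_injective M.subtype_injective, hS0]; norm_num
  have hSM : S ≤ M := map_subtype_le _
  have hSp : IsPGroup 2 S := IsPGroup.of_card (n := 2) (by rw [hSc]; norm_num)
  -- the fixed point
  let X := {x : N // x ∈ C ∧ x ∉ (P : Subgroup N)}
  have hXc : Nat.card X = 11 := by
    have e1 : Nat.card X + Nat.card P = Nat.card C := by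
      have e2 : Nat.card X = Set.ncard ((C : Set N) \ ((P : Subgroup N) : Set N)) := rfl
      rw [e2]
      have e3 : Nat.card P = Set.ncard (((P : Subgroup N) : Set N)) := rfl
      have e4 : Nat.card C = Set.ncard ((C : Set N)) := rfl
      rw [e3, e4]
      exact Set.ncard_sdiff_add_ncard_of_subset (fun x hx => hPC x hx)
    rw [hPc, h2] at e1
    omega
  letI act : MulAction S X :=
    { smul := fun s x => ⟨s * x.1 * (s : N)⁻¹, hCM s (hSM s.2) _ x.2.1, fun h => x.2.2 ((mem_normalizer_iff.1 (hSM s.2) _).2 h)⟩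
      one_smul := fun x => Subtype.ext (by change (1 : N) * x.1 * (1 : N)⁻¹ = x.1; group)
      mul_smul := fun a b x => Subtype.ext (by
        change ((a : N) * b) * x.1 * ((a : N) * b)⁻¹ = a * (b * x.1 * (b : N)⁻¹) * (a : N)⁻¹; group) }
  obtain ⟨⟨x, hxC, hxP⟩, hx⟩ := hSp.nonempty_fixed_point_of_prime_not_dvd_card X (by rw [hXc]; norm_num)
  have hxS : ∀ s ∈ S, s * x * s⁻¹ = x := fun s hs => congrArg Subtype.val (hx ⟨s, hs⟩)
  -- the order of x is even
  have hxo : orderOf x ∣ 22 := by
    have : orderOf (⟨x, hxC⟩ : C) ∣ 22 := h2 ▸ orderOf_dvd_natCard _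
    rwa [← Subgroup.orderOf_coe] at this
  have hxM : x ∈ M := by
    rw [hM, mem_normalizer_iff]
    intro y
    have hy : ∀ y ∈ (P : Subgroup N), x * y * x⁻¹ = y := by
      intro y hy
      rw [← (mem_centralizer_iff.1 hxC) y hy]; group
    constructor
    · intro h; rw [hy y h]; exact h
    · intro h
      have h3 := hy _ h
      have h4 : x * y * x⁻¹ = y := by
        have h5 : x * (x * y * x⁻¹) * x⁻¹ = x * y * x⁻¹ := h3
        have h6 := mul_right_cancel h5
        exact mul_left_cancel h6
      rw [← h4]; exact h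
  have hxe : 2 ∣ orderOf x := by
    by_contra hodd
    have h3 : orderOf x ∣ 11 := by
      have h4 : Nat.Coprime (orderOf x) 2 := by
        have : Nat.Coprime (orderOf x) 2 := ((Nat.Prime.coprime_iff_not_dvd Nat.prime_two).2 hodd).symm
        exact this
      exact h4.dvd_of_dvd_mul_left (by rw [show (2 * 11 : ℕ) = 22 by norm_num]; exact hxo)
    have h5 : IsPGroup 11 (zpowers x) := by
      rcases (Nat.dvd_prime (by norm_num)).1 h3 with h | h
      · exact IsPGroup.of_card (n := 0) (by rw [Nat.card_zpowers, h]; norm_num)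
      · exact IsPGroup.of_card (n := 1) (by rw [Nat.card_zpowers, h]; norm_num)
    have h6 := h5.inf_normalizer_sylow P
    have h7 : x ∈ zpowers x ⊓ (P : Subgroup N) := by
      have h8 : x ∈ zpowers x ⊓ M := mem_inf.2 ⟨mem_zpowers x, hxM⟩
      exact h6 ▸ h8
    exact hxP (mem_inf.1 h7).2
  obtain ⟨m, hm⟩ := hxe
  set t := x ^ m with ht
  have hm0 : 0 < m := by
    have := orderOf_pos x
    omega
  have hto : orderOf t = 2 := by
    rw [ht, orderOf_pow_of_dvd (by omega) ⟨2, by rw [hm]; ring⟩, hm]
    exact Nat.mul_div_cancel _ hm0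
  have ht1 : t ≠ 1 := by intro h; rw [h, orderOf_one] at hto; omega
  have ht2 : t ^ 2 = 1 := hto ▸ pow_orderOf_eq_one t
  -- t is central in M
  have htM : ∀ s ∈ M, s * t = t * s := by
    let D := centralizer ({t} : Set N) ⊓ M
    have hD : D ≤ M := inf_le_right
    have d1 : (P : Subgroup N) ≤ D := by
      intro y hy
      refine mem_inf.2 ⟨?_, hPM hy⟩
      rw [mem_centralizer_singleton_iff]
      exact (Commute.pow_right ((mem_centralizer_iff.1 hxC) y hy) m)
    have d2 : S ≤ D := by
      intro y hy
      refine mem_inf.2 ⟨?_, hSM hy⟩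
      rw [mem_centralizer_singleton_iff]
      have : y * x = x * y := by
        have := hxS y hy
        rw [mul_inv_eq_iff_eq_mul] at this
        exact this
      exact (Commute.pow_right this m)
    have d3 : 11 ∣ Nat.card D := hPc ▸ Subgroup.card_dvd_of_le d1
    have d4 : 4 ∣ Nat.card D := hSc ▸ Subgroup.card_dvd_of_le d2
    have d5 : Nat.card D ∣ 44 := h1 ▸ Subgroup.card_dvd_of_le hD
    have d6 : 44 ∣ Nat.card D := by
      have := Nat.Coprime.mul_dvd_of_dvd_of_dvd (show Nat.Coprime 11 4 by norm_num) d3 d4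
      exact this
    have d7 : D = M := Subgroup.eq_of_le_of_card_ge hD (by rw [h1]; exact Nat.le_of_dvd Nat.card_pos d6)
    intro s hs
    rw [← d7] at hs
    exact mem_centralizer_singleton_iff.1 (mem_inf.1 hs).1
  have htm : t ∈ M := pow_mem hxM m
  have hΩ : Nat.card (Sylow 11 N) = 45 := by
    rw [P.card_eq_index_normalizer]
    have h3 : Nat.card (normalizer (P : Set N)) * (normalizer (P : Set N)).index = Nat.card N := card_mul_index _
    have h4 : Nat.card (normalizer (P : Set N)) = 44 := h1
    rw [hN, h4] at h3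
    omega
  have htC : t ∈ C := pow_mem hxC m
  -- fixed points
  let F := {Q : Sylow 11 N // t ∈ normalizer ((Q : Subgroup N) : Set N)}
  have hFP : ∀ Q : Sylow 11 N, t ∈ normalizer ((Q : Subgroup N) : Set N) ↔ t • Q = Q :=
    fun Q => (Sylow.smul_eq_iff_mem_normalizer).symm
  have m11 : Nat.card F ≡ 1 [MOD 11] := by
    letI act2 : MulAction P F :=
      { smul := fun y Q => ⟨(y : N) • Q.1, by
          rw [hFP]
          have h3 := (hFP Q.1).1 Q.2
          have h4 : t * (y : N) = y * t := (mem_centralizer_iff.1 htC y y.2).symm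
          rw [← mul_smul, h4, mul_smul, h3]⟩
        one_smul := fun Q => Subtype.ext (one_smul N Q.1)
        mul_smul := fun a b Q => Subtype.ext (mul_smul (a : N) (b : N) Q.1) }
    have h3 := P.isPGroup'.card_modEq_card_fixedPoints F
    have h4 : Nat.card (MulAction.fixedPoints P F) = 1 := by
      rw [Nat.card_eq_one_iff_unique]
      refine ⟨⟨fun a b => ?_⟩, ⟨⟨⟨P, htm⟩, ?_⟩⟩⟩
      · have key : ∀ c : MulAction.fixedPoints P F, c.1.1 = P := by
          intro c
          apply sylow_eq P
          intro y hy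
          have := congrArg Subtype.val (c.2 ⟨y, hy⟩)
          exact Sylow.smul_eq_iff_mem_normalizer.1 this
        exact Subtype.ext (Subtype.ext ((key a).trans (key b).symm))
      · intro y
        apply Subtype.ext
        exact Sylow.smul_eq_iff_mem_normalizer.2 (hPM y.2)
    rw [h4] at h3; exact h3
  have m2 : 45 ≡ Nat.card F [MOD 2] := by
    have hz : IsPGroup 2 (zpowers t) := IsPGroup.of_card (n := 1) (by rw [Nat.card_zpowers, hto]; norm_num)
    have h3 := hz.card_modEq_card_fixedPoints (Sylow 11 N)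
    have h4 : Nat.card (MulAction.fixedPoints (zpowers t) (Sylow 11 N)) = Nat.card F := by
      apply Nat.card_congr
      refine Equiv.subtypeEquivRight fun Q => ?_
      rw [hFP]
      constructor
      · intro h; exact h ⟨t, mem_zpowers t⟩
      · intro h y
        obtain ⟨y, hy⟩ := y
        obtain ⟨k, rfl⟩ := mem_zpowers_iff.1 hy
        have h5 : t ∈ MulAction.stabilizer N Q := h
        exact (zpow_mem h5 k)
    rw [h4, hΩ] at h3
    exact h3
  have hle : Nat.card F ≤ 45 := hΩ ▸ Nat.card_le_card_of_injective _ Subtype.val_injective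
  have hcases : Nat.card F = 1 ∨ Nat.card F = 23 ∨ Nat.card F = 45 := by
    unfold Nat.ModEq at m11 m2
    omega
  letI : Fintype (Sylow 11 N) := Fintype.ofFinite _
  let σ : N →* Equiv.Perm (Sylow 11 N) := MulAction.toPermHom N (Sylow 11 N)
  have hσ : ∀ (g : N) (Q : Sylow 11 N), σ g Q = g • Q := fun g Q => rfl
  have hsup : (σ t).support.card + Nat.card F = 45 := by
    have e1 : (σ t).support = Finset.univ.filter (fun Q : Sylow 11 N => ¬ (t ∈ normalizer ((Q : Subgroup N) : Set N))) := by
      ext Q
      rw [Equiv.Perm.mem_support, Finset.mem_filter, hFP, hσ]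
      simp
    have e2 : Nat.card F = (Finset.univ.filter (fun Q : Sylow 11 N => t ∈ normalizer ((Q : Subgroup N) : Set N))).card := by
      rw [Nat.card_eq_fintype_card]; exact Fintype.card_subtype _
    have e3 : Fintype.card (Sylow 11 N) = 45 := by rw [← Nat.card_eq_fintype_card, hΩ]
    rw [e1, e2, add_comm, Finset.card_filter_add_card_filter_not, Finset.card_univ, e3]
  have hσ1 : σ t ≠ 1 := by
    intro h
    apply ht1
    apply hcore
    intro Q
    rw [hFP, ← hσ, h]; rfl
  have hsign : ∀ g : N, Equiv.Perm.sign (σ g) = 1 := fun g => htriv0 (Equiv.Perm.sign.comp σ) g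
  rcases hcases with hF | hF | hF
  · -- one fixed point
    have huniq : ∀ Q : Sylow 11 N, t • Q = Q → Q = P := by
      intro Q hQ
      have h3 := Nat.card_eq_one_iff_unique.1 hF
      have h4 := h3.1.elim (⟨Q, (hFP Q).2 hQ⟩ : F) ⟨P, htm⟩
      exact congrArg Subtype.val h4
    have htS : t ∈ S := by
      have h3 : Nat.card S0 = 2 ^ (Nat.card M).factorization 2 := by
        rw [hS0, h1]
        have : (44 : ℕ).factorization 2 = 2 := by
          rw [show (44 : ℕ) = 2 ^ 2 * 11 by norm_num, Nat.factorization_mul (by norm_num) (by norm_num), Nat.factorization_pow]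
          simp [Nat.Prime.factorization_self Nat.prime_two, Nat.factorization_eq_zero_of_not_dvd (show ¬ 2 ∣ 11 by norm_num)]
        rw [this]
      let R : Sylow 2 M := Sylow.ofCard S0 h3
      have h4 : IsPGroup 2 (zpowers (⟨t, htm⟩ : M)) :=
        IsPGroup.of_card (n := 1) (by rw [Nat.card_zpowers, ← Subgroup.orderOf_coe, hto]; norm_num)
      have h5 := h4.inf_normalizer_sylow R
      have h6 : (⟨t, htm⟩ : M) ∈ zpowers (⟨t, htm⟩ : M) ⊓ normalizer ((R : Subgroup M) : Set M) := by
        refine mem_inf.2 ⟨mem_zpowers _, ?_⟩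
        rw [mem_normalizer_iff]
        intro y
        have : (⟨t, htm⟩ : M) * y * (⟨t, htm⟩ : M)⁻¹ = y := by
          rw [mul_inv_eq_iff_eq_mul]
          exact Subtype.ext (htM y y.2).symm
        rw [this]
      exact ⟨⟨t, htm⟩, (mem_inf.1 (h5.le h6)).2, rfl⟩
    have hcomm : ∀ a b : S, a * b = b * a := by
      exact IsPGroup.commutative_of_card_eq_prime_sq (p := 2) (by rw [hSc]; norm_num)
    letI : CommGroup S := { (inferInstance : Group S) with mul_comm := hcomm }
    have hidx : S.index = 495 := by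
      have := S.card_mul_index
      rw [hN, hSc] at this
      omega
    haveI : S.FiniteIndex := ⟨by rw [hidx]; norm_num⟩
    have key : ∀ (k : ℕ) (g₀ : N), g₀⁻¹ * t ^ k * g₀ ∈ S → g₀⁻¹ * t ^ k * g₀ = t ^ k := by
      intro k g₀ hk
      rcases Nat.even_or_odd k with ⟨j, hj⟩ | ⟨j, hj⟩
      · rw [hj, ← two_mul, pow_mul, ht2, one_pow]; group
      · have h3 : t ^ k = t := by rw [hj, pow_add, pow_mul, ht2, one_pow, one_mul, pow_one]
        rw [h3] at hk ⊢
        have h4 : (g₀⁻¹ * t * g₀) • P = P := Sylow.smul_eq_iff_mem_normalizer.2 (hSM hk)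
        have h5 : t • (g₀ • P) = g₀ • P := by
          rw [mul_smul, mul_smul, inv_smul_eq_iff] at h4
          exact h4
        have h6 : g₀ ∈ M := Sylow.smul_eq_iff_mem_normalizer.1 (huniq _ h5)
        rw [mul_assoc, ← htM g₀ h6, inv_mul_cancel_left]
    have h7 := MonoidHom.transfer_eq_pow (MonoidHom.id S) t key
    rw [htriv] at h7
    have h8 := congrArg Subtype.val h7
    have h9 : (1 : N) = t ^ S.index := h8
    rw [hidx, show (495 : ℕ) = 2 * 247 + 1 by norm_num, pow_add, pow_mul, ht2, one_pow, one_mul, pow_one] at h9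
    exact ht1 h9.symm
  · have h3 := sign_inv (σ t) hσ1 (by rw [← map_pow, ht2, map_one]) (n := 11) (by omega)
    rw [hsign t] at h3
    norm_num at h3
  · apply hσ1
    rw [← Equiv.Perm.card_support_eq_zero]
    omega

end CfsgLib.H6T
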