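import Cfsg.Agent.LibCoprime

set_option autoImplicit false

/-! Groups of order 7920 (part 3: coprime action and Burnside) -/

namespace CfsgLib.H6T

open Subgroup

universe u

/-- fixed points of an `r`-group of order prime acting by conjugation -/
theorem card_fix {G : Type u} [Group G] [Finite G] {r : ℕ} [Fact r.Prime] (A Q : Subgroup G) (hA : IsPGroup r A)
    (hAQ : A ≤ normalizer (Q : Set G)) :
    Nat.card Q ≡ Nat.card ↥(Q ⊓ centralizer (A : Set G)) [MOD r] := by
  letI act : MulAction A Q :=
    { smul := fun a x => ⟨a * x.1 * (a : G)⁻¹, (mem_normalizer_iff.1 (hAQ a.2) _).1 x.2⟩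
      one_smul := fun x => Subtype.ext (by change (1 : G) * x.1 * (1 : G)⁻¹ = x.1; group)
      mul_smul := fun a b x => Subtype.ext (by
        change ((a : G) * b) * x.1 * ((a : G) * b)⁻¹ = a * (b * x.1 * (b : G)⁻¹) * (a : G)⁻¹; group) }
  have h := hA.card_modEq_card_fixedPoints Q
  have h2 : Nat.card (MulAction.fixedPoints A Q) = Nat.card ↥(Q ⊓ centralizer (A : Set G)) := by
    apply Nat.card_congr
    refine
      { toFun := fun x => ⟨x.1.1, mem_inf.2 ⟨x.1.2, ?_⟩⟩
        invFun := fun x => ⟨⟨x.1, (mem_inf.1 x.2).1⟩, ?_⟩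
        left_inv := fun x => rfl
        right_inv := fun x => rfl }
    · rw [mem_centralizer_iff]
      intro a ha
      have h3 := congrArg Subtype.val (x.2 ⟨a, ha⟩)
      have h4 : a * x.1.1 * a⁻¹ = x.1.1 := h3
      rw [mul_inv_eq_iff_eq_mul] at h4
      exact h4
    · intro a
      apply Subtype.ext
      have h3 := mem_centralizer_iff.1 (mem_inf.1 x.2).2 a a.2
      change (a : G) * x.1 * (a : G)⁻¹ = x.1
      rw [h3, mul_inv_cancel_right]
  rw [h2] at h
  exact h

theorem nc {G : Type u} [Group G] [Finite G] (P : Subgroup G) {p : ℕ} (hp : p.Prime) (hP : Nat.card P = p) :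
    ∃ k, k ∣ p - 1 ∧ Nat.card (normalizer (P : Set G)) = k * Nat.card (centralizer (P : Set G)) := by
  haveI : Fact p.Prime := ⟨hp⟩
  haveI : IsCyclic P := isCyclic_of_prime_card hP
  refine ⟨Nat.card (P.normalizerMonoidHom).range, ?_, ?_⟩
  · have h1 := Subgroup.card_subgroup_dvd_card (P.normalizerMonoidHom).range
    rw [IsCyclic.card_mulAut, hP, Nat.totient_prime hp] at h1
    exact h1
  · have h1 := Subgroup.card_mul_index (P.normalizerMonoidHom).ker
    rw [Subgroup.index_ker, Subgroup.normalizerMonoidHom_ker] at h1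
    have h2 : Nat.card ((centralizer (P : Set G)).subgroupOf (normalizer (P : Set G))) = Nat.card (centralizer (P : Set G)) :=
      Nat.card_congr (Subgroup.subgroupOfEquivOfLe (centralizer_le_normalizer _)).toEquiv
    rw [h2] at h1
    rw [← h1, mul_comm]

/-- Burnside: a perfect group has no Sylow subgroup with `N(P) = C(P)` -/
theorem burnside {N : Type u} [Group N] [Finite N] (hperf : _root_.commutator N = ⊤) {p : ℕ} [Fact p.Prime]
    (hd : p ∣ Nat.card N) (P : Sylow p N) (h : normalizer ((P : Subgroup N) : Set N) ≤ centralizer ((P : Subgroup N) : Set N)) : False := by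
  have h0 : IsMulCommutative P := by
    refine ⟨⟨fun a b => ?_⟩⟩
    apply Subtype.ext
    exact (mem_centralizer_iff.1 (h (le_normalizer b.2)) a a.2)
  have h1 := MonoidHom.ker_transferSylow_isComplement' P h
  have h2 : (MonoidHom.transferSylow P h).ker = ⊤ := by
    rw [eq_top_iff, ← hperf]
    have : (_root_.commutator N) ≤ (MonoidHom.transferSylow P h).ker := by
      rw [_root_.commutator_def, Subgroup.commutator_le]
      intro a _ b _
      rw [MonoidHom.mem_ker, map_commutatorElement]
      exact commutatorElement_eq_one_iff_mul_comm.2 (h0.1.comm _ _)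
    exact this
  rw [h2] at h1
  have h3 : (P : Subgroup N) = ⊥ := isComplement'_top_left.1 h1
  exact P.ne_bot_of_dvd_card hd h3

theorem cop_central {G : Type u} [Group G] [Finite G] (hG : Nat.card G ∣ 7920) (P N : Subgroup G) (hP : Nat.card P = 11)
    (hPN : P ≤ normalizer (N : Set G)) (hN : ¬ 11 ∣ Nat.card N) : N ≤ centralizer (P : Set G) := by
  haveI : Fact (Nat.Prime 11) := ⟨by norm_num⟩
  have hP11 : IsPGroup 11 P := IsPGroup.of_card (n := 1) (by rw [hP]; norm_num)
  have hcop : (Nat.card P).Coprime (Nat.card N) := by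
    rw [hP]; exact (Nat.Prime.coprime_iff_not_dvd (by norm_num)).2 hN
  haveI : IsCyclic P := isCyclic_of_prime_card hP
  have hsol : Group.IsSolvable P := by
    exact Group.isSolvable_of_comm (fun a b => mul_comm' a b)
  have hN720 : Nat.card N ∣ 720 := by
    have h1 : Nat.card N ∣ 7920 := (Subgroup.card_subgroup_dvd_card N).trans hG
    have h2 : Nat.Coprime (Nat.card N) 11 := ((Nat.Prime.coprime_iff_not_dvd (by norm_num)).2 hN).symm
    exact h2.dvd_of_dvd_mul_left (by rw [show 11 * 720 = 7920 by norm_num]; exact h1)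
  have hN0 : Nat.card N ≠ 0 := Nat.card_pos.ne'
  have key : Nat.card N ∣ Nat.card ↥(N ⊓ centralizer (P : Set G)) := by
    rw [← Nat.factorization_prime_le_iff_dvd hN0 Nat.card_pos.ne']
    intro q hq
    haveI : Fact q.Prime := ⟨hq⟩
    obtain ⟨Q, hQ⟩ := CfsgLib.Coprime.exists_invariant_sylow hPN hcop (Or.inl hsol) q
    set R := (Q : Subgroup N).map N.subtype with hR
    have hRN : R ≤ N := map_subtype_le _
    have hRc : Nat.card R = q ^ (Nat.card N).factorization q := by
      rw [hR, Subgroup.card_map_of_injective N.subtype_injective]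
      exact Q.card_eq_multiplicity
    have h1 := card_fix (r := 11) P R hP11 hQ
    have h2 : Nat.card ↥(R ⊓ centralizer (P : Set G)) ∣ Nat.card R := Subgroup.card_dvd_of_le inf_le_left
    have h3 : Nat.card R ∣ 720 := (Subgroup.card_dvd_of_le hRN).trans hN720
    have h4 : Nat.card ↥(R ⊓ centralizer (P : Set G)) = Nat.card R := by
      rw [hRc] at h1 h2 h3 ⊢
      generalize (Nat.card N).factorization q = k at *
      generalize Nat.card ↥(R ⊓ centralizer (P : Set G)) = m at *
      rcases Nat.eq_zero_or_pos k with hk | hk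
      · subst hk; rw [pow_zero] at h2 ⊢; exact Nat.dvd_one.1 h2
      · have h5 : q ∣ 720 := (dvd_pow_self q hk.ne').trans h3
        have h6 : q ∣ 2 ^ 4 * 3 ^ 2 * 5 := h5
        have h7 : q = 2 ∨ q = 3 ∨ q = 5 := by
          rcases (Nat.Prime.dvd_mul hq).1 h6 with h | h
          · rcases (Nat.Prime.dvd_mul hq).1 h with h | h
            · left; exact (Nat.prime_dvd_prime_iff_eq hq (by norm_num)).1 (hq.dvd_of_dvd_pow h)
            · right; left; exact (Nat.prime_dvd_prime_iff_eq hq (by norm_num)).1 (hq.dvd_of_dvd_pow h)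
          · right; right; exact (Nat.prime_dvd_prime_iff_eq hq (by norm_num)).1 h
        have h8 : k ≤ 4 := by
          by_contra hk4
          have h9 : q ^ 5 ∣ 720 := (pow_dvd_pow q (by omega)).trans h3
          rcases h7 with rfl | rfl | rfl <;> norm_num at h9
        unfold Nat.ModEq at h1
        have h10 : m ≤ 720 := Nat.le_of_dvd (by norm_num) (h2.trans h3)
        rcases h7 with rfl | rfl | rfl
        · obtain ⟨j, hj, rfl⟩ := (Nat.dvd_prime_pow Nat.prime_two).1 h2
          interval_cases k <;> interval_cases j <;> first | rfl | (norm_num at h1)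
        · obtain ⟨j, hj, rfl⟩ := (Nat.dvd_prime_pow Nat.prime_three).1 h2
          interval_cases k <;> interval_cases j <;> first | rfl | (norm_num at h1) | (norm_num at h3)
        · obtain ⟨j, hj, rfl⟩ := (Nat.dvd_prime_pow (by norm_num : Nat.Prime 5)).1 h2
          interval_cases k <;> interval_cases j <;> first | rfl | (norm_num at h1) | (norm_num at h3)
    have h5 : R ⊓ centralizer (P : Set G) = R := Subgroup.eq_of_le_of_card_ge inf_le_left h4.ge
    have h6 : R ≤ N ⊓ centralizer (P : Set G) := le_inf hRN (inf_eq_left.1 h5)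
    have h7 := Subgroup.card_dvd_of_le h6
    rw [hRc] at h7
    exact (hq.pow_dvd_iff_le_factorization Nat.card_pos.ne').1 h7
  have h1 : N ⊓ centralizer (P : Set G) = N :=
    Subgroup.eq_of_le_of_card_ge inf_le_left (Nat.le_of_dvd Nat.card_pos key)
  exact inf_eq_left.1 h1

end CfsgLib.H6T
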