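import Cfsg.Agent.LibH6Tb
import Cfsg.Agent.LibH6Tc

set_option autoImplicit false

/-! Groups of order 7920 (part 4: adjacency in the prime graph) -/

namespace CfsgLib.H6T

open Subgroup

universe u

def HA (G : Type u) [Group G] (A : Set ℕ) : Prop := ∀ a ∈ A, ∀ b ∉ A, a.Prime → b.Prime → ∀ g : G, orderOf g ≠ a * b

variable {G : Type u} [Group G] [Finite G]

theorem conn {A : Set ℕ} (hA : HA G A) {a b : ℕ} (ha : a.Prime) (hb : b.Prime) (hab : a ≠ b) {x y : G}
    (hx : orderOf x = a) (hy : orderOf y = b) (hc : x * y = y * x) : (a ∈ A ↔ b ∈ A) := by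
  have hcop : Nat.Coprime (orderOf x) (orderOf y) := by rw [hx, hy]; exact (Nat.coprime_primes ha hb).2 hab
  have ho : orderOf (x * y) = a * b := by
    rw [(show Commute x y from hc).orderOf_mul_eq_mul_orderOf_of_coprime hcop, hx, hy]
  by_cases h1 : a ∈ A <;> by_cases h2 : b ∈ A
  · exact ⟨fun _ => h2, fun _ => h1⟩
  · exact absurd ho (hA a h1 b h2 ha hb _)
  · exact absurd (ho.trans (mul_comm a b)) (hA b h2 a h1 hb ha _)
  · exact ⟨fun h => absurd h h1, fun h => absurd h h2⟩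

theorem conn_sub {A : Set ℕ} (hA : HA G A) {a b : ℕ} (ha : a.Prime) (hb : b.Prime) (hab : a ≠ b) (P Q : Subgroup G)
    (hP : a ∣ Nat.card P) (hd : b ∣ Nat.card Q) (hPQ : Q ≤ centralizer (P : Set G)) : (a ∈ A ↔ b ∈ A) := by
  haveI : Fact a.Prime := ⟨ha⟩
  haveI : Fact b.Prime := ⟨hb⟩
  obtain ⟨x, hx⟩ := exists_prime_orderOf_dvd_card' a hP
  obtain ⟨y, hy⟩ := exists_prime_orderOf_dvd_card' b hd
  exact conn hA ha hb hab (x := (x : G)) (y := (y : G)) (by rw [Subgroup.orderOf_coe, hx]) (by rw [Subgroup.orderOf_coe, hy])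
    (mem_centralizer_iff.1 (hPQ y.2) x x.2)

omit [Finite G] in
theorem not_all {A : Set ℕ} (h1 : ∃ a ∈ A, a.Prime ∧ a ∣ 7920) (h2 : ∃ b ∉ A, b.Prime ∧ b ∣ 7920)
    (c2 : 11 ∈ A ↔ 2 ∈ A) (c3 : 11 ∈ A ↔ 3 ∈ A) (c5 : 11 ∈ A ↔ 5 ∈ A) : False := by
  have key : ∀ a : ℕ, a.Prime → a ∣ 7920 → (a ∈ A ↔ 11 ∈ A) := by
    intro a ha hd
    have h3 : a ∣ 2 ^ 4 * 3 ^ 2 * 5 * 11 := hd
    rcases (Nat.Prime.dvd_mul ha).1 h3 with h | h
    · rcases (Nat.Prime.dvd_mul ha).1 h with h | h
      · rcases (Nat.Prime.dvd_mul ha).1 h with h | h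
        · rw [(Nat.prime_dvd_prime_iff_eq ha (by norm_num)).1 (ha.dvd_of_dvd_pow h)]; exact c2.symm
        · rw [(Nat.prime_dvd_prime_iff_eq ha (by norm_num)).1 (ha.dvd_of_dvd_pow h)]; exact c3.symm
      · rw [(Nat.prime_dvd_prime_iff_eq ha (by norm_num)).1 h]; exact c5.symm
    · rw [(Nat.prime_dvd_prime_iff_eq ha (by norm_num)).1 h]
  obtain ⟨a, ha, hap, had⟩ := h1
  obtain ⟨b, hb, hbp, hbd⟩ := h2
  exact hb ((key b hbp hbd).2 ((key a hap had).1 ha))

theorem fact35 {A : Set ℕ} (hA : HA G A) (hG : Nat.card G ∣ 7920) (X : Subgroup G) (f : G) (hf : orderOf f = 5)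
    (hfX : f ∈ normalizer (X : Set G)) (h3 : 3 ∣ Nat.card X) (h5 : ¬ 5 ∣ Nat.card X) : (5 ∈ A ↔ 3 ∈ A) := by
  haveI : Fact (Nat.Prime 5) := ⟨by norm_num⟩
  haveI : Fact (Nat.Prime 3) := ⟨by norm_num⟩
  have hc5 : Nat.card (zpowers f) = 5 := by rw [Nat.card_zpowers, hf]
  have hp5 : IsPGroup 5 (zpowers f) := IsPGroup.of_card (n := 1) (by rw [hc5]; norm_num)
  have hcop : (Nat.card (zpowers f)).Coprime (Nat.card X) := by
    rw [hc5]; exact (Nat.Prime.coprime_iff_not_dvd (by norm_num)).2 h5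
  have hsol : Group.IsSolvable (zpowers f) := Group.isSolvable_of_comm (fun a b => mul_comm' a b)
  obtain ⟨Q, hQ⟩ := CfsgLib.Coprime.exists_invariant_sylow (A := zpowers f) (K := X) ((zpowers_le).2 hfX) hcop (Or.inl hsol) 3
  set R := (Q : Subgroup X).map X.subtype with hR
  have hRc : Nat.card R = 3 ^ (Nat.card X).factorization 3 := by
    rw [hR, Subgroup.card_map_of_injective X.subtype_injective]
    exact Q.card_eq_multiplicity
  have hk1 : 1 ≤ (Nat.card X).factorization 3 := (Nat.Prime.dvd_iff_one_le_factorization (by norm_num) Nat.card_pos.ne').1 h3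
  have h1 := card_fix (r := 5) (zpowers f) R hp5 hQ
  have h2 : Nat.card ↥(R ⊓ centralizer ((zpowers f : Subgroup G) : Set G)) ∣ Nat.card R := Subgroup.card_dvd_of_le inf_le_left
  have h4 : Nat.card R ∣ 7920 := (Subgroup.card_subgroup_dvd_card R).trans hG
  have h6 : 3 ∣ Nat.card ↥(R ⊓ centralizer ((zpowers f : Subgroup G) : Set G)) := by
    rw [hRc] at h1 h2 h4
    generalize (Nat.card X).factorization 3 = k at *
    generalize Nat.card ↥(R ⊓ centralizer ((zpowers f : Subgroup G) : Set G)) = m at *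
    have h8 : k ≤ 2 := by
      by_contra hk4
      have h9 : 3 ^ 3 ∣ 7920 := (pow_dvd_pow 3 (by omega)).trans h4
      norm_num at h9
    obtain ⟨j, hj, rfl⟩ := (Nat.dvd_prime_pow Nat.prime_three).1 h2
    unfold Nat.ModEq at h1
    interval_cases k <;> interval_cases j <;> first | (norm_num; done) | (norm_num at h1)
  exact conn_sub hA (by norm_num) (by norm_num) (by norm_num) (zpowers f) _ (by rw [hc5]) h6 inf_le_right

theorem index_le (x : G) (N : Subgroup G) [N.Normal] (hx : x ∈ N) : (centralizer ({x} : Set G)).index ≤ Nat.card N := by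
  rw [Subgroup.index]
  have hf : ∀ a b : G, a⁻¹ * b ∈ centralizer ({x} : Set G) → a * x * a⁻¹ = b * x * b⁻¹ := by
    intro a b h
    rw [mem_centralizer_singleton_iff] at h
    have h2 : b * x = a * x * a⁻¹ * b := by
      calc b * x = a * (a⁻¹ * b * x) := by group
        _ = a * (x * (a⁻¹ * b)) := by rw [h]
        _ = a * x * a⁻¹ * b := by group
    rw [h2, mul_inv_cancel_right]
  let f : G ⧸ centralizer ({x} : Set G) → N := Quotient.lift
    (fun g => (⟨g * x * g⁻¹, Subgroup.Normal.conj_mem inferInstance x hx g⟩ : N))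
    (fun a b h => Subtype.ext (hf a b (QuotientGroup.leftRel_apply.1 h)))
  refine Nat.card_le_card_of_injective f ?_
  intro a b
  induction a using Quotient.inductionOn with | _ a => ?_
  induction b using Quotient.inductionOn with | _ b => ?_
  intro h
  apply Quotient.sound
  apply QuotientGroup.leftRel_apply.2
  have h1 : a * x * a⁻¹ = b * x * b⁻¹ := congrArg Subtype.val h
  rw [mem_centralizer_singleton_iff]
  calc a⁻¹ * b * x = a⁻¹ * (b * x * b⁻¹) * b := by group
    _ = a⁻¹ * (a * x * a⁻¹) * b := by rw [h1]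
    _ = x * (a⁻¹ * b) := by group

omit [Finite G] in
theorem card_sub (H K : Subgroup G) : Nat.card (H.subgroupOf K) = Nat.card ↥(H ⊓ K) := by
  rw [← Subgroup.subgroupOf_map_subtype, Subgroup.card_map_of_injective K.subtype_injective]

omit [Finite G] in
theorem cent_sub (H K : Subgroup G) (h : H ≤ K) :
    centralizer ((H.subgroupOf K : Subgroup K) : Set K) = (centralizer (H : Set G)).subgroupOf K := by
  ext x
  rw [mem_centralizer_iff, mem_subgroupOf, mem_centralizer_iff]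
  constructor
  · intro h1 y hy
    exact congrArg Subtype.val (h1 ⟨y, h hy⟩ (by exact hy))
  · intro h1 y hy
    exact Subtype.ext (h1 y hy)

end CfsgLib.H6T
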