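import Cfsg.Agent.LibH6Td

set_option autoImplicit false

/-! Groups of order 7920 (part 5: minimal normal subgroups of order divisible by 11) -/

namespace CfsgLib.H6T

open Subgroup
open scoped commutatorElement

universe u

theorem partB {G : Type u} [Group G] [Finite G] (hG : Nat.card G = 7920) (N : Subgroup G) [hNn : N.Normal] (hN1 : N ≠ ⊥)
    (hmin : ∀ K : Subgroup G, K.Normal → K ≤ N → K = ⊥ ∨ K = N)
    [Fact (Nat.Prime 11)] (P0 : Sylow 11 G) (hPc : Nat.card P0 = 11)
    (P M C : Subgroup G) (hPdef : P = (P0 : Subgroup G)) (hM : M = normalizer (P : Set G)) (hC : C = centralizer (P : Set G))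
    (hMi : M.index ≠ 1) (h11 : 11 ∣ Nat.card N) :
    P ≤ N ∧ Nat.card M = Nat.card ↥(M ⊓ N) * N.index ∧ _root_.commutator N = ⊤ ∧
      ∃ PN : Sylow 11 N, (PN : Subgroup N) = P.subgroupOf N ∧
        ∀ t : N, (∀ Q : Sylow 11 N, t ∈ normalizer ((Q : Subgroup N) : Set N)) → t = 1 := by
  have hNi : Nat.card N * N.index = 7920 := by rw [card_mul_index, hG]
  have hcopi : Nat.Coprime 11 N.index := by
    rw [Nat.Prime.coprime_iff_not_dvd (by norm_num)]
    intro h
    have h3 : 11 * 11 ∣ 7920 := hNi ▸ Nat.mul_dvd_mul h11 h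
    norm_num at h3
  have hsub : ∀ Q : Sylow 11 G, (Q : Subgroup G) ≤ N := by
    intro Q x hx
    have hQc : Nat.card Q = 11 := by
      rw [Q.card_eq_multiplicity, ← P0.card_eq_multiplicity, hPc]
    have e1 : x ^ 11 = 1 := by
      have : (⟨x, hx⟩ : Q) ^ (Nat.card Q) = 1 := pow_card_eq_one'
      rw [hQc] at this
      exact congrArg Subtype.val this
    have e2 : ((x : G) : G ⧸ N) ^ 11 = 1 := by rw [← QuotientGroup.mk_pow, e1]; rfl
    have e3 : ((x : G) : G ⧸ N) ^ N.index = 1 := pow_card_eq_one'
    have e4 : orderOf ((x : G) : G ⧸ N) ∣ Nat.gcd 11 N.index :=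
      Nat.dvd_gcd (orderOf_dvd_of_pow_eq_one e2) (orderOf_dvd_of_pow_eq_one e3)
    rw [Nat.Coprime.gcd_eq_one hcopi] at e4
    have e5 := orderOf_eq_one_iff.1 (Nat.dvd_one.1 e4)
    exact (QuotientGroup.eq_one_iff x).1 e5
  have hPN : P ≤ N := hPdef ▸ hsub P0
  have hsup : M ⊔ N = ⊤ := by
    have := Sylow.normalizer_sup_eq_top' P0 (hsub P0)
    rw [hM, hPdef]
    exact this
  have hrel : N.relIndex M = N.index := by
    rw [← Subgroup.relIndex_sup_right, hsup, Subgroup.relIndex_top_right]
  have hMc : Nat.card M = Nat.card ↥(M ⊓ N) * N.index := by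
    have e1 := (N.subgroupOf M).card_mul_index
    have e2 : (N.subgroupOf M).index = N.index := hrel
    rw [e2, card_sub, inf_comm] at e1
    exact e1.symm
  have hnot : ¬ N ≤ M := by
    intro h
    apply hMi
    rw [Subgroup.index_eq_one]
    rw [sup_eq_left.2 h] at hsup
    exact hsup
  refine ⟨hPN, hMc, ?_, ?_⟩
  · have e1 := hmin ((_root_.commutator N).map N.subtype) inferInstance (map_subtype_le _)
    rcases e1 with e1 | e1
    · exfalso
      apply hnot
      have e2 : _root_.commutator N = ⊥ := by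
        rw [← Subgroup.map_eq_bot_iff_of_injective _ N.subtype_injective]
        exact e1
      intro x hx
      rw [hM]
      apply centralizer_le_normalizer
      rw [mem_centralizer_iff]
      intro y hy
      have e3 : ⁅(⟨y, hPN hy⟩ : N), (⟨x, hx⟩ : N)⁆ ∈ _root_.commutator N := by
        rw [_root_.commutator_def]
        exact commutator_mem_commutator (mem_top _) (mem_top _)
      rw [e2, mem_bot, commutatorElement_eq_one_iff_mul_comm] at e3
      exact congrArg Subtype.val e3
    · rw [eq_top_iff]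
      intro x _
      have e2 : (x : G) ∈ (_root_.commutator N).map N.subtype := e1.ge x.2
      obtain ⟨y, hy, hyx⟩ := e2
      have : y = x := Subtype.ext hyx
      rw [← this]; exact hy
  · refine ⟨P0.subtype (hsub P0), by rw [hPdef]; rfl, ?_⟩
    intro t ht
    have hL := hmin ((MulAction.toPermHom G (Sylow 11 G)).ker ⊓ N) inferInstance inf_le_right
    have hker : ∀ x : G, x ∈ (MulAction.toPermHom G (Sylow 11 G)).ker ↔ ∀ Q : Sylow 11 G, x ∈ normalizer ((Q : Subgroup G) : Set G) := by
      intro x
      rw [MonoidHom.mem_ker]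
      constructor
      · intro h Q
        have h3 : x • Q = Q := congrArg (fun σ : Equiv.Perm (Sylow 11 G) => σ Q) h
        exact Sylow.smul_eq_iff_mem_normalizer.1 h3
      · intro h
        ext1 Q
        exact Sylow.smul_eq_iff_mem_normalizer.2 (h Q)
    have htL : (t : G) ∈ (MulAction.toPermHom G (Sylow 11 G)).ker ⊓ N := by
      refine mem_inf.2 ⟨?_, t.2⟩
      rw [hker]
      intro Q
      have h3 := ht (Q.subtype (hsub Q))
      have h4 : t ∈ normalizer (((Q : Subgroup G).subgroupOf N : Subgroup N) : Set N) := h3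
      rw [← Subgroup.subgroupOf_normalizer_eq (hsub Q), mem_subgroupOf] at h4
      exact h4
    rcases hL with hL | hL
    · rw [hL, mem_bot] at htL
      exact Subtype.ext htL
    · exfalso
      apply hnot
      intro x hx
      have h3 : x ∈ (MulAction.toPermHom G (Sylow 11 G)).ker := by
        rw [← hL] at hx
        exact (mem_inf.1 hx).1
      rw [hM, hPdef]
      exact (hker x).1 h3 P0

end CfsgLib.H6T
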