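import Cfsg.Agent.LibH6Td
import Cfsg.Agent.LibH6Tf

set_option autoImplicit false

/-! Groups of order 7920 (part 5: the main argument) -/

namespace CfsgLib.H6T

open Subgroup

universe u

theorem dec1 : ∀ n ≤ 720, n ∣ 720 → n % 11 = 1 → n = 1 ∨ n = 12 ∨ n = 45 ∨ n = 144 := by decide +kernel

theorem dec55 : ∀ n ≤ 55, n ∣ 55 → ¬ 11 ∣ n → n = 1 ∨ n = 5 := by decide +kernel

theorem dec88 : ∀ n ≤ 88, n ∣ 88 → ¬ 11 ∣ n → n = 1 ∨ n = 2 ∨ n = 4 ∨ n = 8 := by decide +kernel

theorem dec176 : ∀ n ≤ 176, n ∣ 176 → 11 ∣ n → n = 11 ∨ n = 22 ∨ n = 44 ∨ n = 88 ∨ n = 176 := by decide +kernel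

theorem dec55b : ∀ n ≤ 55, n ∣ 55 → 11 ∣ n → n = 11 ∨ n = 55 := by decide +kernel

theorem main {G : Type u} [Group G] [Finite G] (hG : Nat.card G = 7920) {A : Set ℕ} (h1 : ∃ a ∈ A, a.Prime ∧ a ∣ 7920)
    (h2 : ∃ b ∉ A, b.Prime ∧ b ∣ 7920) (hA : HA G A) (N : Subgroup G) [hNn : N.Normal] (hN1 : N ≠ ⊥) (hN2 : N ≠ ⊤)
    (hmin : ∀ K : Subgroup G, K.Normal → K ≤ N → K = ⊥ ∨ K = N) : False := by
  haveI : Fact (Nat.Prime 11) := ⟨by norm_num⟩
  haveI : Fact (Nat.Prime 5) := ⟨by norm_num⟩
  haveI : Fact (Nat.Prime 3) := ⟨by norm_num⟩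
  haveI : Fact (Nat.Prime 2) := ⟨by norm_num⟩
  obtain ⟨P0⟩ : Nonempty (Sylow 11 G) := inferInstance
  have hPc : Nat.card P0 = 11 := by
    rw [P0.card_eq_multiplicity, hG]
    have : (7920 : ℕ).factorization 11 = 1 := by
      rw [show (7920 : ℕ) = 11 * 720 by norm_num, Nat.factorization_mul (by norm_num) (by norm_num)]
      simp [Nat.Prime.factorization_self (show Nat.Prime 11 by norm_num), Nat.factorization_eq_zero_of_not_dvd (show ¬ 11 ∣ 720 by norm_num)]
    rw [this, pow_one]
  obtain ⟨P, hPdef⟩ : ∃ P : Subgroup G, P = (P0 : Subgroup G) := ⟨_, rfl⟩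
  have hPc' : Nat.card P = 11 := by rw [hPdef]; exact hPc
  haveI : IsCyclic P := isCyclic_of_prime_card hPc'
  have hGd : Nat.card G ∣ 7920 := hG ▸ dvd_rfl
  obtain ⟨M, hM⟩ : ∃ M : Subgroup G, M = normalizer (P : Set G) := ⟨_, rfl⟩
  obtain ⟨C, hC⟩ : ∃ C : Subgroup G, C = centralizer (P : Set G) := ⟨_, rfl⟩
  have hPM : P ≤ M := hM ▸ le_normalizer
  have hCM : C ≤ M := by rw [hC, hM]; exact centralizer_le_normalizer _
  have hPC : P ≤ C := by
    rw [hC]
    intro x hx
    rw [mem_centralizer_iff]
    intro y hy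
    exact congrArg Subtype.val (mul_comm' (⟨y, hy⟩ : P) ⟨x, hx⟩)
  have hMC : M ≤ normalizer (C : Set G) := by
    have key : ∀ s ∈ M, ∀ x ∈ C, s * x * s⁻¹ ∈ C := by
      intro s hs x hx
      rw [hC, mem_centralizer_iff] at hx ⊢
      intro y hy
      rw [hM] at hs
      have h3 : s⁻¹ * y * s ∈ P := by
        have := (mem_normalizer_iff.1 (inv_mem hs) y).1 hy
        simpa using this
      have h4 := hx _ h3
      calc y * (s * x * s⁻¹) = s * ((s⁻¹ * y * s) * x) * s⁻¹ := by group
        _ = s * (x * (s⁻¹ * y * s)) * s⁻¹ := by rw [h4]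
        _ = s * x * s⁻¹ * y := by group
    intro s hs
    rw [mem_normalizer_iff]
    intro x
    refine ⟨key s hs x, fun h => ?_⟩
    have := key s⁻¹ (inv_mem hs) _ h
    have e : s⁻¹ * (s * x * s⁻¹) * s⁻¹⁻¹ = x := by group
    rwa [e] at this
  have hMi : M.index = 1 ∨ M.index = 12 ∨ M.index = 45 ∨ M.index = 144 := by
    have e1 : Nat.card (Sylow 11 G) = M.index := by rw [P0.card_eq_index_normalizer, hM, hPdef]; rfl
    have e2 : Nat.card (Sylow 11 G) ∣ (P0 : Subgroup G).index := P0.card_dvd_index
    have e3 : (P0 : Subgroup G).index = 720 := by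
      have h3 : Nat.card P0 * (P0 : Subgroup G).index = Nat.card G := card_mul_index _
      rw [hPc, hG] at h3
      omega
    have e4 : Nat.card (Sylow 11 G) ≡ 1 [MOD 11] := card_sylow_modEq_one 11 G
    rw [e1] at e2 e4
    rw [e3] at e2
    exact dec1 _ (Nat.le_of_dvd (by norm_num) e2) e2 e4
  have hMc : Nat.card M * M.index = 7920 := by rw [card_mul_index, hG]
  obtain ⟨k, hk, hkc⟩ := nc P (by norm_num : Nat.Prime 11) hPc'
  rw [← hM, ← hC] at hkc
  have hk10 : k ≤ 10 := Nat.le_of_dvd (by norm_num) hk
  norm_num at hk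
  have h11C : 11 ∣ Nat.card C := hPc' ▸ Subgroup.card_dvd_of_le hPC
  have h11P : 11 ∣ Nat.card P := by rw [hPc']
  -- first case
  have caseA : 66 ∣ Nat.card C → 5 ∣ Nat.card M → False := by
    intro h66 h5
    have c2 := conn_sub hA (a := 11) (b := 2) (by norm_num) (by norm_num) (by norm_num) P C h11P (by omega) hC.le
    have c3 := conn_sub hA (a := 11) (b := 3) (by norm_num) (by norm_num) (by norm_num) P C h11P (by omega) hC.le
    by_cases h5C : 5 ∣ Nat.card C
    · exact not_all h1 h2 c2 c3 (conn_sub hA (a := 11) (b := 5) (by norm_num) (by norm_num) (by norm_num) P C h11P h5C hC.le)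
    · obtain ⟨f, hf⟩ := exists_prime_orderOf_dvd_card' 5 h5
      have c5 := fact35 hA hGd C (f : G) (by rw [Subgroup.orderOf_coe, hf]) (hMC f.2) (by omega) h5C
      exact not_all h1 h2 c2 c3 (c3.trans c5.symm)
  have hN0 : Nat.card N ≠ 1 := fun h => hN1 (Subgroup.card_eq_one.1 h)
  have hPN0 : P ≤ normalizer (N : Set G) := by rw [normalizer_eq_top]; exact le_top
  have hNi : Nat.card N * N.index = 7920 := by rw [card_mul_index, hG]
  have hNi1 : N.index ≠ 1 := fun h => hN2 (Subgroup.index_eq_one.1 h)
  rcases hMi with hi | hi | hi | hi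
  · rw [hi, mul_one] at hMc
    apply caseA _ (by rw [hMc]; norm_num)
    rw [hMc] at hkc
    interval_cases k <;> omega
  · rw [hi] at hMc
    apply caseA _ (by omega)
    have : Nat.card M = 660 := by omega
    rw [this] at hkc
    interval_cases k <;> omega
  · -- index 45
    rw [hi] at hMc
    have hM176 : Nat.card M = 176 := by omega
    by_cases h11 : 11 ∣ Nat.card N
    · obtain ⟨hPN, hMN, hperf, PN, hPNc, hcore⟩ := partB hG N hN1 hmin P0 hPc P M C hPdef hM hC (by rw [hi]; norm_num) h11
      have hd : Nat.card ↥(M ⊓ N) ∣ 176 := by rw [← hM176, hMN]; exact dvd_mul_right _ _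
      have hd11 : 11 ∣ Nat.card ↥(M ⊓ N) := hPc' ▸ Subgroup.card_dvd_of_le (le_inf hPM hPN)
      have hnorm : Nat.card (normalizer ((PN : Subgroup N) : Set N)) = Nat.card ↥(M ⊓ N) := by
        rw [hPNc, ← Subgroup.subgroupOf_normalizer_eq hPN, card_sub, hM]
      have hcent : Nat.card (centralizer ((PN : Subgroup N) : Set N)) = Nat.card ↥(C ⊓ N) := by
        rw [hPNc, cent_sub _ _ hPN, card_sub, hC]
      have hPNcard : Nat.card (PN : Subgroup N) = 11 := by
        rw [hPNc, card_sub, inf_eq_left.2 hPN, hPc']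
      obtain ⟨k2, hk2, hkc2⟩ := nc (PN : Subgroup N) (by norm_num : Nat.Prime 11) hPNcard
      have hk2' : k2 ≤ 10 := Nat.le_of_dvd (by norm_num) hk2
      norm_num at hk2
      have hk2one : k2 ≠ 1 := by
        intro hk
        rw [hk, one_mul] at hkc2
        have : normalizer ((PN : Subgroup N) : Set N) = centralizer ((PN : Subgroup N) : Set N) :=
          (Subgroup.eq_of_le_of_card_ge (centralizer_le_normalizer _) hkc2.le).symm
        exact burnside hperf h11 PN this.le
      have hNc : Nat.card N = 45 * Nat.card ↥(M ⊓ N) := by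
        rw [hMN] at hM176
        have h3 : Nat.card ↥(M ⊓ N) * N.index * 45 = Nat.card N * N.index := by rw [hM176, hNi]
        have h4 : 0 < N.index := Nat.pos_of_ne_zero (by intro h; rw [h] at hNi; omega)
        have h5 : (45 * Nat.card ↥(M ⊓ N)) * N.index = Nat.card N * N.index := by rw [← h3]; ring
        exact (Nat.eq_of_mul_eq_mul_right h4 h5).symm
      rw [hnorm] at hkc2
      rcases dec176 _ (Nat.le_of_dvd (by norm_num) hd) hd hd11 with h | h | h | h | h
      · rw [h] at hkc2
        have h3 : 11 ∣ Nat.card (centralizer ((PN : Subgroup N) : Set N)) := by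
          rw [hcent]
          exact hPc' ▸ Subgroup.card_dvd_of_le (le_inf hPC hPN)
        obtain ⟨c, hc⟩ := h3
        rw [hc] at hkc2
        apply hk2one
        have h4 : k2 * c = 1 := by
          have : 11 * (k2 * c) = 11 * 1 := by rw [mul_one]; nlinarith [hkc2]
          exact Nat.eq_of_mul_eq_mul_left (by norm_num) this
        exact Nat.dvd_one.1 ⟨c, h4.symm⟩
      · -- order 990
        obtain ⟨S⟩ : Nonempty (Sylow 2 N) := inferInstance
        have hN990 : Nat.card N = 990 := by rw [hNc, h]
        have hS2 : Nat.card S = 2 := by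
          rw [S.card_eq_multiplicity, hN990]
          have : (990 : ℕ).factorization 2 = 1 := by
            rw [show (990 : ℕ) = 2 * 495 by norm_num, Nat.factorization_mul (by norm_num) (by norm_num)]
            simp [Nat.Prime.factorization_self (show Nat.Prime 2 by norm_num), Nat.factorization_eq_zero_of_not_dvd (show ¬ 2 ∣ 495 by norm_num)]
          rw [this, pow_one]
        obtain ⟨k3, hk3, hkc3⟩ := nc (S : Subgroup N) Nat.prime_two hS2
        have hk31 : k3 = 1 := Nat.dvd_one.1 hk3
        rw [hk31, one_mul] at hkc3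
        have : normalizer ((S : Subgroup N) : Set N) = centralizer ((S : Subgroup N) : Set N) :=
          (Subgroup.eq_of_le_of_card_ge (centralizer_le_normalizer _) hkc3.le).symm
        exact burnside hperf (by rw [hN990]; norm_num) S this.le
      · rw [h] at hkc2 hNc hnorm
        have h3 : Nat.card (centralizer ((PN : Subgroup N) : Set N)) = 22 := by
          interval_cases k2 <;> omega
        exact finalN2 (by rw [hNc]) hperf PN hnorm h3 hcore
      · rw [h] at hkc2 hNc hnorm
        have h3 : Nat.card (centralizer ((PN : Subgroup N) : Set N)) = 44 := by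
          interval_cases k2 <;> omega
        exact finalN (by rw [hNc]) hperf PN hnorm h3 hcore
      · rw [h, hM176] at hMN
        exact hNi1 (by omega)
    · have hNC : N ≤ C := hC ▸ cop_central hGd P N hPc' hPN0 h11
      have hk2 : k ≠ 1 := by
        intro hk1
        rw [hk1, one_mul] at hkc
        have hle : normalizer ((P0 : Subgroup G) : Set G) ≤ centralizer ((P0 : Subgroup G) : Set G) := by
          have : C = M := Subgroup.eq_of_le_of_card_ge hCM hkc.le
          rw [← hPdef, ← hM, ← hC, this]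
        have hcomp := MonoidHom.ker_transferSylow_isComplement' P0 hle
        have hKc := hcomp.card_mul_card
        have hK720 : Nat.card (MonoidHom.transferSylow P0 hle).ker = 720 := by
          have e : Nat.card (MonoidHom.transferSylow P0 hle).ker * Nat.card P0 = Nat.card G := hKc
          rw [hPc, hG] at e
          omega
        have hKC := cop_central hGd P (MonoidHom.transferSylow P0 hle).ker hPc'
          (by rw [normalizer_eq_top]; exact le_top) (by rw [hK720]; norm_num)
        have h3 := (Subgroup.card_dvd_of_le hKC)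
        rw [← hC, ← hkc, hM176, hK720] at h3
        norm_num at h3
      have hC88 : Nat.card C = 88 := by
        rw [hM176] at hkc
        interval_cases k <;> omega
      have hNd : Nat.card N ∣ 88 := hC88 ▸ Subgroup.card_dvd_of_le hNC
      have c2 := conn_sub hA (a := 11) (b := 2) (by norm_num) (by norm_num) (by norm_num) P C h11P (by omega) hC.le
      have hN8 : Nat.card N = 2 ∨ Nat.card N = 4 ∨ Nat.card N = 8 := by
        rcases dec88 _ (Nat.le_of_dvd (by norm_num) hNd) hNd h11 with h | h
        · exact absurd h hN0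
        · exact h
      have h2N : 2 ∣ Nat.card N := by omega
      -- 3
      have c3 : 2 ∈ A ↔ 3 ∈ A := by
        obtain ⟨x, hx⟩ := exists_prime_orderOf_dvd_card' 2 h2N
        have h3 := index_le (x : G) N x.2
        have h4 : Nat.card (centralizer ({(x : G)} : Set G)) * (centralizer ({(x : G)} : Set G)).index = 7920 := by
          rw [card_mul_index, hG]
        have h5 : 3 ∣ Nat.card (centralizer ({(x : G)} : Set G)) := by
          by_contra h6
          have h7 : Nat.Coprime 9 (Nat.card (centralizer ({(x : G)} : Set G))) := by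
            have := (Nat.Prime.coprime_iff_not_dvd Nat.prime_three).2 h6
            exact Nat.Coprime.pow_left 2 this
          have h8 : 9 ∣ (centralizer ({(x : G)} : Set G)).index :=
            h7.dvd_of_dvd_mul_left (by rw [h4]; norm_num)
          have h9 : 9 ≤ (centralizer ({(x : G)} : Set G)).index :=
            Nat.le_of_dvd (Nat.pos_of_ne_zero (by intro h; rw [h] at h4; omega)) h8
          omega
        obtain ⟨y, hy⟩ := exists_prime_orderOf_dvd_card' 3 h5
        exact conn hA Nat.prime_two Nat.prime_three (by norm_num) (x := (x : G)) (y := (y : G))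
          (by rw [Subgroup.orderOf_coe, hx]) (by rw [Subgroup.orderOf_coe, hy]) (mem_centralizer_singleton_iff.1 y.2).symm
      -- 5
      have c5 : 5 ∈ A ↔ 2 ∈ A := by
        obtain ⟨f, hf⟩ := exists_prime_orderOf_dvd_card' (G := G) 5 (by rw [hG]; norm_num)
        have hc5 : Nat.card (zpowers f) = 5 := by rw [Nat.card_zpowers, hf]
        have hp5 : IsPGroup 5 (zpowers f) := IsPGroup.of_card (n := 1) (by rw [hc5]; norm_num)
        have h3 := card_fix (r := 5) (zpowers f) N hp5 (by rw [normalizer_eq_top]; exact le_top)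
        have h4 : Nat.card ↥(N ⊓ centralizer ((zpowers f : Subgroup G) : Set G)) ∣ Nat.card N := Subgroup.card_dvd_of_le inf_le_left
        have h5 : 2 ∣ Nat.card ↥(N ⊓ centralizer ((zpowers f : Subgroup G) : Set G)) := by
          generalize Nat.card ↥(N ⊓ centralizer ((zpowers f : Subgroup G) : Set G)) = m at *
          unfold Nat.ModEq at h3
          have h6 : m ≤ Nat.card N := Nat.le_of_dvd Nat.card_pos h4
          rcases hN8 with h | h | h
          · rw [h] at h3 h4 h6; interval_cases m <;> omega
          · rw [h] at h3 h4 h6; interval_cases m <;> omega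
          · rw [h] at h3 h4 h6; interval_cases m <;> omega
        exact conn_sub hA (by norm_num) (by norm_num) (by norm_num) (zpowers f) _ (by rw [hc5]) h5 inf_le_right
      exact not_all h1 h2 c2 (c2.trans c3) (c2.trans c5.symm)
  · -- index 144
    rw [hi] at hMc
    have hM55 : Nat.card M = 55 := by omega
    by_cases h11 : 11 ∣ Nat.card N
    · obtain ⟨hPN, hMN, hperf, PN, hPNc, hcore⟩ := partB hG N hN1 hmin P0 hPc P M C hPdef hM hC (by rw [hi]; norm_num) h11
      have hd : Nat.card ↥(M ⊓ N) ∣ 55 := by rw [← hM55, hMN]; exact dvd_mul_right _ _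
      have hd11 : 11 ∣ Nat.card ↥(M ⊓ N) := hPc' ▸ Subgroup.card_dvd_of_le (le_inf hPM hPN)
      have hnorm : Nat.card (normalizer ((PN : Subgroup N) : Set N)) = Nat.card ↥(M ⊓ N) := by
        rw [hPNc, ← Subgroup.subgroupOf_normalizer_eq hPN, card_sub, hM]
      have hcent : Nat.card (centralizer ((PN : Subgroup N) : Set N)) = Nat.card ↥(C ⊓ N) := by
        rw [hPNc, cent_sub _ _ hPN, card_sub, hC]
      rcases dec55b _ (Nat.le_of_dvd (by norm_num) hd) hd hd11 with h | h
      · have h3 : 11 ∣ Nat.card ↥(C ⊓ N) := hPc' ▸ Subgroup.card_dvd_of_le (le_inf hPC hPN)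
        have h4 : Nat.card (normalizer ((PN : Subgroup N) : Set N)) ≤ Nat.card (centralizer ((PN : Subgroup N) : Set N)) := by
          rw [hnorm, hcent, h]
          exact Nat.le_of_dvd Nat.card_pos h3
        have : normalizer ((PN : Subgroup N) : Set N) = centralizer ((PN : Subgroup N) : Set N) :=
          (Subgroup.eq_of_le_of_card_ge (centralizer_le_normalizer _) h4).symm
        exact burnside hperf h11 PN this.le
      · rw [h, hM55] at hMN
        exact hNi1 (by omega)
    · have hNC : N ≤ C := hC ▸ cop_central hGd P N hPc' hPN0 h11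
      have hNd : Nat.card N ∣ 55 := hM55 ▸ (Subgroup.card_dvd_of_le (hNC.trans hCM))
      have hN5 : Nat.card N = 5 := by
        rcases dec55 _ (Nat.le_of_dvd (by norm_num) hNd) hNd h11 with h | h
        · exact absurd h hN0
        · exact h
      obtain ⟨k2, hk2, hkc2⟩ := nc N (by norm_num : Nat.Prime 5) hN5
      rw [normalizer_eq_top, Subgroup.card_top, hG] at hkc2
      have hk2' : k2 ≤ 4 := Nat.le_of_dvd (by norm_num) hk2
      norm_num at hk2
      have h66 : 66 ∣ Nat.card (centralizer (N : Set G)) := by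
        interval_cases k2 <;> omega
      have d5 : 5 ∣ Nat.card N := by rw [hN5]
      have c2 := conn_sub hA (a := 5) (b := 2) (by norm_num) (by norm_num) (by norm_num) N _ d5 (by omega) le_rfl
      have c3 := conn_sub hA (a := 5) (b := 3) (by norm_num) (by norm_num) (by norm_num) N _ d5 (by omega) le_rfl
      have c11 := conn_sub hA (a := 5) (b := 11) (by norm_num) (by norm_num) (by norm_num) N _ d5 (by omega) le_rfl
      exact not_all h1 h2 (c11.symm.trans c2) (c11.symm.trans c3) c11.symm

end CfsgLib.H6T
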