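import Mathlib
import Cfsg.Prelude.Def_Solvable
import Cfsg.Agent.LibFrobH13
import Cfsg.Agent.LibCoprime

set_option autoImplicit false

/-!
A finite group with an abelian maximal subgroup has trivial third derived subgroup (helper7).
-/

namespace CfsgLib.H7AbMax

open Subgroup Pointwise

variable {G : Type*} [Group G]

theorem mem_conj_smul {H : Subgroup G} {g x : G} : x ∈ MulAut.conj g • H ↔ g⁻¹ * x * g ∈ H := by
  rw [Subgroup.mem_pointwise_smul_iff_inv_smul_mem, ← map_inv]
  simp [MulAut.smul_def]

open scoped IsMulCommutative in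
/-- An abelian Frobenius complement has a normal complement (via transfer). -/
theorem exists_normal_compl [Finite G] (H : Subgroup G) [IsMulCommutative H]
    (hH : Cfsg.IsFrobeniusComplement H) :
    ∃ K : Subgroup G, K.Normal ∧ K ⊓ H = ⊥ ∧ K.index = Nat.card H := by
  classical
  let f : G →* H := MonoidHom.transfer (MonoidHom.id H)
  have key : ∀ g ∈ H, ∀ (k : ℕ) (g₀ : G), g₀⁻¹ * g ^ k * g₀ ∈ H → g₀⁻¹ * g ^ k * g₀ = g ^ k := by
    intro g hg k g₀ h
    by_cases h0 : g₀ ∈ H
    · have : g ^ k * g₀ = g₀ * g ^ k :=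
        congrArg Subtype.val (mul_comm (⟨g ^ k, H.pow_mem hg k⟩ : H) ⟨g₀, h0⟩)
      rw [mul_assoc, this, inv_mul_cancel_left]
    · have h1 := hH.2.2 g₀ h0
      have h2 : g ^ k ∈ H ⊓ MulAut.conj g₀ • H := ⟨H.pow_mem hg k, mem_conj_smul.mpr h⟩
      rw [h1, mem_bot] at h2
      rw [h2]; simp
  have hf : ∀ g, g ∈ H → ((f g : H) : G) = g ^ H.index := by
    intro g hg
    have := MonoidHom.transfer_eq_pow (MonoidHom.id H) g (key g hg)
    change ((MonoidHom.transfer (MonoidHom.id H) g : H) : G) = _
    rw [this]; rfl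
  have hcop := CfsgLib.FrobH13.coprime_card_index hH
  have hinj : ∀ g ∈ H, f g = 1 → g = 1 := by
    intro g hg h1
    have h2 := hf g hg
    rw [h1] at h2
    have h3 : orderOf g ∣ H.index := orderOf_dvd_of_pow_eq_one h2.symm
    have h4 : orderOf g ∣ Nat.card H := Subgroup.orderOf_dvd_natCard H hg
    exact orderOf_eq_one_iff.mp (Nat.eq_one_of_dvd_coprimes hcop h4 h3)
  refine ⟨f.ker, inferInstance, ?_, ?_⟩
  · rw [eq_bot_iff]
    rintro x ⟨hx, hxH⟩
    exact mem_bot.mpr (hinj x hxH hx)
  · have hsurj : Function.Surjective f := by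
      have hinj' : Function.Injective (fun h : H => f h) := by
        intro a b hab
        have h1 : f ((a * b⁻¹ : H) : G) = 1 := by
          rw [Subgroup.coe_mul, map_mul, Subgroup.coe_inv, map_inv]
          change f a = f b at hab
          rw [hab, mul_inv_cancel]
        have h2 := hinj _ (a * b⁻¹).2 h1
        have h3 : a * b⁻¹ = 1 := Subtype.ext h2
        exact mul_inv_eq_one.mp h3
      have hs := Finite.surjective_of_injective hinj'
      intro y
      obtain ⟨x, hx⟩ := hs y
      exact ⟨x, hx⟩
    rw [Subgroup.index_ker, MonoidHom.range_eq_top.mpr hsurj, Subgroup.card_top]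

/-- quotient by a normal maximal subgroup is commutative -/
theorem commutator_le_of_coatom {A : Subgroup G} (hA : IsCoatom A) [hn : A.Normal] :
    commutator G ≤ A := by
  obtain ⟨g, hg⟩ : ∃ g, g ∉ A := by
    by_contra hcon
    push Not at hcon
    exact hA.1 (eq_top_iff.mpr fun x _ => hcon x)
  have htop : A ⊔ zpowers g = ⊤ := by
    apply hA.2
    apply lt_of_le_of_ne le_sup_left
    intro h
    apply hg
    rw [h]
    exact (le_sup_right : zpowers g ≤ _) (mem_zpowers g)
  haveI : IsCyclic (G ⧸ A) := by
    refine ⟨(QuotientGroup.mk g : G ⧸ A), fun x => ?_⟩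
    obtain ⟨y, rfl⟩ := QuotientGroup.mk_surjective x
    have hy : y ∈ A ⊔ zpowers g := by rw [htop]; exact mem_top y
    obtain ⟨a, ha, z, hz, rfl⟩ := Subgroup.mem_sup_of_normal_left.mp hy
    obtain ⟨k, rfl⟩ := mem_zpowers_iff.mp hz
    rw [QuotientGroup.mk_mul, (QuotientGroup.eq_one_iff a).mpr ha, one_mul, QuotientGroup.mk_zpow]
    exact zpow_mem (mem_zpowers _) k
  have hc : ∀ x y : G ⧸ A, x * y = y * x := by
    letI := IsCyclic.commGroup (α := G ⧸ A)
    intro x y
    exact mul_comm x y
  rw [commutator_def, Subgroup.commutator_le]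
  intro x _ y _
  rw [← QuotientGroup.eq_one_iff]
  have := hc (x : G ⧸ A) (y : G ⧸ A)
  rw [commutatorElement_def, QuotientGroup.mk_mul, QuotientGroup.mk_mul, QuotientGroup.mk_mul,
    this, QuotientGroup.mk_inv, QuotientGroup.mk_inv]
  group

/-- the centre part of the argument -/
theorem derived_two_of_frob [Finite G] (A : Subgroup G) (hA : IsCoatom A) [IsMulCommutative A]
    (hF : Cfsg.IsFrobeniusComplement A) : derivedSeries G 2 = ⊥ := by
  obtain ⟨K, hKn, hKA, hKi⟩ := exists_normal_compl A hF
  haveI := hKn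
  have hcop := CfsgLib.FrobH13.coprime_card_index hF
  have hcardK : Nat.card K = A.index := by
    have h1 := K.card_mul_index
    have h2 := A.card_mul_index
    rw [hKi] at h1
    have h3 : Nat.card K * Nat.card A = A.index * Nat.card A := by rw [h1, ← h2, mul_comm]
    exact Nat.eq_of_mul_eq_mul_right Nat.card_pos h3
  have hK1 : Nat.card K ≠ 1 := by
    rw [hcardK]
    intro h
    exact hA.1 (Subgroup.index_eq_one.mp h)
  have hAK : A ≤ normalizer (K : Set G) := by
    rw [normalizer_eq_top_iff.mpr hKn]; exact le_top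
  have hcopAK : (Nat.card A).Coprime (Nat.card K) := by rw [hcardK]; exact hcop
  have hAsolv : Group.IsSolvable A := by
    open scoped IsMulCommutative in
    infer_instance
  -- K is a q-group
  obtain ⟨q, hq, hqK⟩ := Nat.exists_prime_and_dvd hK1
  haveI : Fact q.Prime := ⟨hq⟩
  obtain ⟨P, hP⟩ := CfsgLib.Coprime.exists_invariant_sylow hAK hcopAK (Or.inl hAsolv) q
  -- any A-invariant nontrivial subgroup of K is K
  have hkey : ∀ Q : Subgroup G, Q ≤ K → A ≤ normalizer (Q : Set G) → Q ≠ ⊥ → Q = K := by
    intro Q hQK hQA hQ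
    have htop : A ⊔ Q = ⊤ := by
      apply hA.2
      apply lt_of_le_of_ne le_sup_left
      intro h
      apply hQ
      rw [eq_bot_iff, ← hKA]
      refine le_inf hQK ?_
      rw [h]
      exact le_sup_right
    have hcard := CfsgLib.Coprime.card_sup_mul_card_inf hQA
    have hinf : Q ⊓ A = ⊥ := by
      rw [eq_bot_iff, ← hKA]
      exact inf_le_inf_right _ hQK
    apply Subgroup.eq_of_le_of_card_ge hQK
    have h2 := K.card_mul_index
    rw [hKi] at h2
    have h4 : Nat.card Q * Nat.card A = Nat.card G := by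
      first
        | (rw [sup_comm, inf_comm] at hcard; rw [htop, hinf] at hcard; simpa [mul_comm] using hcard.symm)
        | (rw [sup_comm] at hcard; rw [htop, hinf] at hcard; simpa [mul_comm] using hcard.symm)
        | (rw [htop, hinf] at hcard; simpa [mul_comm] using hcard.symm)
        | (rw [inf_comm] at hcard; rw [htop, hinf] at hcard; simpa [mul_comm] using hcard.symm)
    have h5 : Nat.card K * Nat.card A = Nat.card Q * Nat.card A := by rw [h2, h4]
    exact (Nat.eq_of_mul_eq_mul_right Nat.card_pos h5).le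
  have hPne : (P : Subgroup K).map K.subtype ≠ ⊥ := by
    intro h
    rw [Subgroup.map_eq_bot_iff_of_injective _ K.subtype_injective] at h
    have := P.ne_bot_of_dvd_card hqK
    exact this h
  have hPK := hkey _ (map_subtype_le _) hP hPne
  have hKp : IsPGroup q K := by
    rw [← hPK]
    exact P.isPGroup'.map _
  haveI : Group.IsNilpotent K := hKp.isNilpotent
  haveI hKs : Group.IsSolvable K := inferInstance
  -- K is abelian
  have hKab : ⁅K, K⁆ = ⊥ := by
    by_contra hne
    have h1 := hkey ⁅K, K⁆ (Subgroup.commutator_le_left K K) (by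
      rw [normalizer_eq_top_iff.mpr inferInstance]; exact le_top) hne
    have h2 : K ≠ ⊥ := by
      intro h; rw [h] at hK1; simp at hK1
    haveI : Nontrivial K := (Subgroup.nontrivial_iff_ne_bot K).mpr h2
    have h3 := IsSolvable.commutator_lt_top_of_nontrivial K
    have h4 : (commutator K).map K.subtype = ⁅K, K⁆ := by
      rw [commutator_def, Subgroup.map_commutator, ← MonoidHom.range_eq_map, Subgroup.range_subtype]
    rw [h1] at h4
    have h5 : commutator K = ⊤ := by
      apply Subgroup.map_injective K.subtype_injective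
      rw [h4, ← MonoidHom.range_eq_map, Subgroup.range_subtype]
    exact h3.ne h5
  -- G' ≤ K
  have hG1 : commutator G ≤ K := by
    have hKtop : K ⊔ A = ⊤ := by
      rw [sup_comm]
      apply hA.2
      apply lt_of_le_of_ne le_sup_left
      intro h
      have h1 : K ≤ A := by rw [h]; exact le_sup_right
      have h2 : K = ⊥ := by rw [← hKA, inf_eq_left.mpr h1]
      rw [h2] at hK1; simp at hK1
    rw [commutator_def, ← hKtop]
    rw [Subgroup.commutator_le]
    intro x hx y hy
    obtain ⟨k, hk, a, ha, rfl⟩ := Subgroup.mem_sup_of_normal_left.mp hx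
    obtain ⟨l, hl, b, hb, rfl⟩ := Subgroup.mem_sup_of_normal_left.mp hy
    rw [← QuotientGroup.eq_one_iff, commutatorElement_def]
    have hab : a * b = b * a := congrArg Subtype.val (mul_comm' (⟨a, ha⟩ : A) ⟨b, hb⟩)
    have hk' : ((k : G) : G ⧸ K) = 1 := (QuotientGroup.eq_one_iff k).mpr hk
    have hl' : ((l : G) : G ⧸ K) = 1 := (QuotientGroup.eq_one_iff l).mpr hl
    simp only [QuotientGroup.mk_mul, QuotientGroup.mk_inv, hk', hl', one_mul]
    rw [← QuotientGroup.mk_mul, hab, QuotientGroup.mk_mul]
    group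
  rw [eq_bot_iff]
  calc derivedSeries G 2 = ⁅derivedSeries G 1, derivedSeries G 1⁆ := rfl
    _ ≤ ⁅K, K⁆ := Subgroup.commutator_mono (by rw [derivedSeries_one]; exact hG1) (by rw [derivedSeries_one]; exact hG1)
    _ = ⊥ := hKab

/-- A finite group with an abelian maximal subgroup has trivial third derived subgroup. -/
theorem derived_three [Finite G] (A : Subgroup G) (hA : IsCoatom A) [IsMulCommutative A] :
    derivedSeries G 3 = ⊥ := by
  have hAA : ⁅A, A⁆ = ⊥ := by
    rw [Subgroup.commutator_eq_bot_iff_le_centralizer]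
    intro x hx
    rw [Subgroup.mem_centralizer_iff]
    intro y hy
    exact congrArg Subtype.val (mul_comm' (⟨y, hy⟩ : A) ⟨x, hx⟩)
  by_cases hn : A.Normal
  · have h1 := commutator_le_of_coatom hA
    have h2 : derivedSeries G 2 ≤ ⊥ := by
      calc derivedSeries G 2 = ⁅derivedSeries G 1, derivedSeries G 1⁆ := rfl
        _ ≤ ⁅A, A⁆ := Subgroup.commutator_mono (by rw [derivedSeries_one]; exact h1) (by rw [derivedSeries_one]; exact h1)
        _ = ⊥ := hAA
    rw [eq_bot_iff]
    exact (derivedSeries_antitone G (by norm_num : 2 ≤ 3)).trans h2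
  have hNA : normalizer (A : Set G) = A := by
    rcases hA.le_iff.mp (le_normalizer (H := A)) with h | h
    · exact absurd (normalizer_eq_top_iff.mp h) hn
    · exact h
  have hZA : center G ≤ A := by
    rw [← hNA]
    intro z hz
    rw [Subgroup.mem_normalizer_iff]
    intro x
    have : z * x * z⁻¹ = x := by
      rw [← (Subgroup.mem_center_iff.mp hz x), mul_inv_cancel_right]
    rw [this]
  have hcap : ∀ g : G, g ∉ A → ∀ x ∈ A, g⁻¹ * x * g ∈ A → x ∈ center G := by
    intro g hg x hx hxg
    have h1 : A ≤ centralizer ({x} : Set G) := by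
      intro a ha
      rw [mem_centralizer_singleton_iff]
      exact congrArg Subtype.val (mul_comm' (⟨a, ha⟩ : A) ⟨x, hx⟩)
    rcases hA.le_iff.mp h1 with h2 | h2
    · rw [Subgroup.mem_center_iff]
      intro y
      have : y ∈ centralizer ({x} : Set G) := by rw [h2]; exact mem_top y
      exact (mem_centralizer_singleton_iff.mp this)
    · exfalso
      apply hg
      rw [← hNA]
      have h3 : ∀ a ∈ A, g * a * g⁻¹ ∈ A := by
        intro a ha
        rw [← h2, mem_centralizer_singleton_iff]
        have h4 : a * (g⁻¹ * x * g) = (g⁻¹ * x * g) * a :=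
          congrArg Subtype.val (mul_comm' (⟨a, ha⟩ : A) ⟨g⁻¹ * x * g, hxg⟩)
        have h5 : g * (a * (g⁻¹ * x * g)) * g⁻¹ = g * ((g⁻¹ * x * g) * a) * g⁻¹ := by rw [h4]
        calc g * a * g⁻¹ * x = g * (a * (g⁻¹ * x * g)) * g⁻¹ := by group
          _ = g * ((g⁻¹ * x * g) * a) * g⁻¹ := h5
          _ = x * (g * a * g⁻¹) := by group
      have h6 : MulAut.conj g • A ≤ A := by
        intro y hy
        rw [mem_conj_smul] at hy
        have := h3 _ hy
        have h7 : g * (g⁻¹ * y * g) * g⁻¹ = y := by group
        rwa [h7] at this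
      have h8 : MulAut.conj g • A = A := by
        apply Subgroup.eq_of_le_of_card_ge h6
        rw [CfsgLib.Coprime.card_conj_smul]
      exact CfsgLib.Coprime.mem_normalizer_of_conj_smul_eq h8
  -- pass to the quotient by the centre
  let π := QuotientGroup.mk' (center G)
  have hπs : Function.Surjective π := QuotientGroup.mk'_surjective _
  have hker : π.ker = center G := QuotientGroup.ker_mk' _
  have hcomap : (A.map π).comap π = A := by
    rw [Subgroup.comap_map_eq, hker, sup_eq_left.mpr hZA]
  have hmem : ∀ x : G, π x ∈ A.map π ↔ x ∈ A := by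
    intro x
    rw [← Subgroup.mem_comap, hcomap]
  have hco : IsCoatom (A.map π) := by
    refine ⟨?_, ?_⟩
    · intro h
      apply hA.1
      rw [← hcomap, h, Subgroup.comap_top]
    · intro B hB
      have h1 : A < B.comap π := by
        rw [← hcomap]
        exact (Subgroup.comap_lt_comap_of_surjective hπs).mpr hB
      have h2 := hA.2 _ h1
      rw [← Subgroup.map_comap_eq_self_of_surjective hπs B, h2, ← MonoidHom.range_eq_map]
      exact MonoidHom.range_eq_top.mpr hπs
  haveI : IsMulCommutative (A.map π) := by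
    refine ⟨⟨?_⟩⟩
    rintro ⟨_, x, hx, rfl⟩ ⟨_, y, hy, rfl⟩
    apply Subtype.ext
    change π x * π y = π y * π x
    rw [← map_mul, ← map_mul]
    congr 1
    exact congrArg Subtype.val (mul_comm' (⟨x, hx⟩ : A) ⟨y, hy⟩)
  have hF : Cfsg.IsFrobeniusComplement (A.map π) := by
    refine ⟨?_, ?_, ?_⟩
    · intro h
      apply hn
      have : A ≤ center G := by
        rw [← hker]
        exact (Subgroup.map_eq_bot_iff _).mp h
      have h2 : A = center G := le_antisymm this hZA
      rw [h2]; infer_instance
    · exact hco.1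
    · intro g hg
      obtain ⟨g, rfl⟩ := hπs g
      rw [eq_bot_iff]
      intro x hx
      obtain ⟨hx1, hx2⟩ := Subgroup.mem_inf.mp hx
      obtain ⟨x, rfl⟩ := hπs x
      rw [hmem] at hx1
      rw [mem_conj_smul, ← map_inv, ← map_mul, ← map_mul, hmem] at hx2
      rw [hmem] at hg
      have h1 := hcap g hg x hx1 hx2
      rw [mem_bot]
      rw [← hker] at h1
      exact h1
  have h2 := derived_two_of_frob (A.map π) hco hF
  have h3 : (derivedSeries G 2).map π ≤ ⊥ := by
    rw [map_derivedSeries_eq hπs, h2]
  have h4 : derivedSeries G 2 ≤ center G := by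
    rw [← hker]
    exact (Subgroup.map_eq_bot_iff _).mp (le_bot_iff.mp h3)
  rw [eq_bot_iff]
  calc derivedSeries G 3 = ⁅derivedSeries G 2, derivedSeries G 2⁆ := rfl
    _ ≤ ⁅center G, center G⁆ := Subgroup.commutator_mono h4 h4
    _ ≤ ⊥ := by
      rw [Subgroup.commutator_le]
      intro x _ y hy
      rw [mem_bot, commutatorElement_eq_one_iff_mul_comm]
      exact (Subgroup.mem_center_iff.mp hy x)

theorem solvable [Finite G] (A : Subgroup G) (hA : IsCoatom A) [IsMulCommutative A] :
    Group.IsSolvable G := ⟨3, derived_three A hA⟩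

end CfsgLib.H7AbMax
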