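import Mathlib
import Cfsg.Agent.LibH7Sylow
import Cfsg.Agent.LibH7Hall
import Cfsg.Agent.LibCoprime

/-! Counting lemmas for invariant subsets of `G`-sets. -/

set_option autoImplicit false

namespace CfsgLib.H7Act

open Subgroup MulAction

variable {G Ω : Type*} [Group G] [MulAction G Ω]

/-- the action on an invariant subset -/
@[reducible] def subAct (P : Subgroup G) (S : Set Ω) (hS : ∀ g ∈ P, ∀ ω ∈ S, g • ω ∈ S) : MulAction P S where
  smul g ω := ⟨(g : G) • (ω : Ω), hS g g.2 ω ω.2⟩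
  one_smul ω := Subtype.ext (one_smul G (ω : Ω))
  mul_smul g h ω := Subtype.ext (mul_smul (g : G) (h : G) (ω : Ω))

theorem card_modEq_fixed [Finite Ω] {p : ℕ} [Fact p.Prime] (P : Subgroup G) (hP : IsPGroup p P)
    (S : Set Ω) (hS : ∀ g ∈ P, ∀ ω ∈ S, g • ω ∈ S) :
    Nat.card S ≡ Nat.card {ω : Ω | ω ∈ S ∧ ∀ g ∈ P, g • ω = ω} [MOD p] := by
  letI := subAct P S hS
  have h := hP.card_modEq_card_fixedPoints (α := S)
  have e : Nat.card (fixedPoints P S) = Nat.card {ω : Ω | ω ∈ S ∧ ∀ g ∈ P, g • ω = ω} := by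
    apply Nat.card_congr
    refine ⟨fun x => ⟨x.1.1, x.1.2, fun g hg => congrArg Subtype.val (x.2 ⟨g, hg⟩)⟩,
      fun x => ⟨⟨x.1, x.2.1⟩, fun g => Subtype.ext (x.2.2 g g.2)⟩, fun x => rfl, fun x => rfl⟩
  rw [e] at h
  exact h

theorem dvd_card_of_orbits' {H β : Type*} [Group H] [MulAction H β] [Finite β] (n : ℕ)
    (h : ∀ b : β, n ∣ Nat.card (orbit H b)) : n ∣ Nat.card β := by
  classical
  letI : Fintype β := Fintype.ofFinite β
  rw [Nat.card_congr (selfEquivSigmaOrbits H β), Nat.card_sigma]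
  exact Finset.dvd_sum fun ω _ => h _

theorem dvd_card_of_orbits [Finite Ω] (P : Subgroup G) (S : Set Ω)
    (hS : ∀ g ∈ P, ∀ ω ∈ S, g • ω ∈ S) (n : ℕ) (h : ∀ ω ∈ S, n ∣ Nat.card (orbit P ω)) :
    n ∣ Nat.card S := by
  letI := subAct P S hS
  apply dvd_card_of_orbits' (H := P)
  intro b
  have e : Nat.card (orbit P b) = Nat.card (orbit P (b : Ω)) := by
    apply Nat.card_congr
    refine ⟨fun x => ⟨x.1.1, by
        obtain ⟨g, hg⟩ := x.2
        exact ⟨g, congrArg Subtype.val hg⟩⟩,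
      fun x => ⟨⟨x.1, by
        obtain ⟨g, hg⟩ := x.2
        simp only at hg
        rw [← hg]
        exact hS g g.2 _ b.2⟩, by
        obtain ⟨g, hg⟩ := x.2
        exact ⟨g, Subtype.ext hg⟩⟩, fun x => rfl, fun x => rfl⟩
  rw [e]
  exact h _ b.2

/-- an element of prime order fixes pointwise any small invariant set -/
theorem fixed_of_card_lt [Finite Ω] {r : ℕ} (hr : r.Prime) {g : G} (hg : orderOf g = r) (S : Set Ω)
    (hS : ∀ ω ∈ S, g • ω ∈ S) (hc : Nat.card S < r) : ∀ ω ∈ S, g • ω = ω := by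
  intro ω hω
  by_contra hne
  have hinv : ∀ x ∈ zpowers g, ∀ ω ∈ S, x • ω ∈ S := by
    have hpow : ∀ n : ℕ, ∀ ω ∈ S, (g ^ n) • ω ∈ S := by
      intro n
      induction n with
      | zero => intro ω hω; simpa using hω
      | succ n ih => intro ω hω; rw [pow_succ', mul_smul]; exact hS _ (ih ω hω)
    intro x hx ω hω
    haveI : Fact (0 < orderOf g) := ⟨by rw [hg]; exact hr.pos⟩
    have hfo : IsOfFinOrder g := orderOf_pos_iff.mp (by rw [hg]; exact hr.pos)
    rw [← hfo.mem_powers_iff_mem_zpowers] at hx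
    obtain ⟨n, rfl⟩ := hx
    exact hpow n ω hω
  have hsub : orbit (zpowers g) ω ⊆ S := by
    rintro _ ⟨x, rfl⟩
    exact hinv x x.2 ω hω
  have h1 : Nat.card (orbit (zpowers g) ω) ≤ Nat.card S := Nat.card_mono (Set.toFinite S) hsub
  haveI : Finite (zpowers g) := by
    rw [← Nat.card_pos_iff.trans (and_iff_right ⟨1⟩), Nat.card_zpowers, hg]
    exact hr.pos
  have h2 : Nat.card (orbit (zpowers g) ω) ∣ r := by
    rw [← hg, ← Nat.card_zpowers, Nat.card_coe_set_eq, ← MulAction.index_stabilizer]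
    exact index_dvd_card _
  rcases (Nat.dvd_prime hr).1 h2 with h3 | h3
  · rw [Nat.card_coe_set_eq, Set.ncard_eq_one] at h3
    obtain ⟨a, ha⟩ := h3
    have e1 : ω ∈ orbit (zpowers g) ω := mem_orbit_self ω
    have e2 : g • ω ∈ orbit (zpowers g) ω := ⟨⟨g, mem_zpowers g⟩, rfl⟩
    rw [ha, Set.mem_singleton_iff] at e1 e2
    exact hne (e2.trans e1.symm)
  · omega

/-- a `2`-element... an involution acting on an odd invariant set has a fixed point -/
theorem exists_fixed_of_odd [Finite Ω] {s : G} (hs : s ^ 2 = 1) (S : Set Ω)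
    (hS : ∀ ω ∈ S, s • ω ∈ S) (hodd : Odd (Nat.card S)) : ∃ ω ∈ S, s • ω = ω := by
  have hP : IsPGroup 2 (zpowers s) := by
    intro x
    obtain ⟨x, hx⟩ := x
    obtain ⟨k, rfl⟩ := mem_zpowers_iff.mp hx
    refine ⟨1, Subtype.ext ?_⟩
    have : (s ^ k) ^ 2 = 1 := by
      rw [← zpow_natCast, ← zpow_mul, mul_comm, zpow_mul, zpow_natCast, hs, one_zpow]
    simpa using this
  have hinv : ∀ g ∈ zpowers s, ∀ ω ∈ S, g • ω ∈ S := by
    intro g hg ω hω
    obtain ⟨k, rfl⟩ := mem_zpowers_iff.mp hg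
    rcases Int.even_or_odd' k with ⟨m, rfl | rfl⟩
    · rw [zpow_mul]
      have : s ^ (2 : ℤ) = 1 := by exact_mod_cast hs
      rw [this, one_zpow, one_smul]; exact hω
    · rw [zpow_add, zpow_mul]
      have : s ^ (2 : ℤ) = 1 := by exact_mod_cast hs
      rw [this, one_zpow, one_mul, zpow_one]; exact hS ω hω
  have h := card_modEq_fixed (p := 2) (zpowers s) hP S hinv
  have h0 : Nat.card {ω : Ω | ω ∈ S ∧ ∀ g ∈ zpowers s, g • ω = ω} ≠ 0 := by
    intro h0
    rw [h0] at h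
    have : Nat.card S % 2 = 1 := Nat.odd_iff.mp hodd
    rw [Nat.ModEq] at h
    omega
  have hne : Nonempty {ω : Ω | ω ∈ S ∧ ∀ g ∈ zpowers s, g • ω = ω} := by
    by_contra hcon
    rw [not_nonempty_iff] at hcon
    exact h0 Nat.card_of_isEmpty
  obtain ⟨ω, h1, h2⟩ := hne
  exact ⟨ω, h1, h2 s (mem_zpowers s)⟩

end CfsgLib.H7Act
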