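import Mathlib

/-! Linear algebra for groups with three automorphism orbits. -/

set_option autoImplicit false

namespace CfsgLib.H7Aut3

open Polynomial

variable {p q : ℕ} [Fact p.Prime] [Fact q.Prime] {V : Type*} [AddCommGroup V] [Module (ZMod p) V]

/-- cyclic submodule -/
noncomputable def cyc (Y : Module.End (ZMod p) V) (w : V) : Submodule (ZMod p) V :=
  LinearMap.range ((LinearMap.applyₗ w) ∘ₗ (aeval Y : (ZMod p)[X] →ₐ[ZMod p] Module.End (ZMod p) V).toLinearMap)

theorem mem_cyc (Y : Module.End (ZMod p) V) (w x : V) : x ∈ cyc Y w ↔ ∃ f : (ZMod p)[X], aeval Y f w = x := by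
  unfold cyc
  rw [LinearMap.mem_range]
  rfl

theorem aeval_aeval (Y : Module.End (ZMod p) V) (f g : (ZMod p)[X]) (x : V) :
    aeval Y f (aeval Y g x) = aeval Y (f * g) x := by
  rw [map_mul]; rfl

theorem semi_aeval (Y : Module.End (ZMod p) V) (T : V ≃+ V) (k : ℕ) (hT : ∀ x, T (Y x) = (Y ^ k) (T x))
    (f : (ZMod p)[X]) (x : V) : T (aeval Y f x) = aeval (Y ^ k) f (T x) := by
  induction f using Polynomial.induction_on' with
  | add f g hf hg => simp only [map_add, LinearMap.add_apply, hf, hg]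
  | monomial n a =>
    have h1 : ∀ n : ℕ, ∀ x, T ((Y ^ n) x) = ((Y ^ k) ^ n) (T x) := by
      intro n
      induction n with
      | zero => intro x; simp
      | succ n ih =>
        intro x
        rw [pow_succ, Module.End.mul_apply, ih, hT, pow_succ, Module.End.mul_apply]
    have h2 : ∀ a : ZMod p, ∀ x, T (a • x) = a • T x := by
      intro a x
      exact ((AddMonoidHom.toZModLinearMap p (T : V →+ V)).map_smul a x)
    rw [aeval_monomial, aeval_monomial, Module.End.mul_apply, Module.End.mul_apply,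
      Module.algebraMap_end_apply, Module.algebraMap_end_apply, h2, h1]

theorem aeval_cyclotomic [Finite V] (hpq : p ≠ q) (Y : Module.End (ZMod p) V) (hq : Y ^ q = 1)
    (hfix : ∀ v, Y v = v → v = 0) : aeval Y (cyclotomic q (ZMod p)) = 0 := by
  rw [cyclotomic_prime, map_sum]
  ext v
  rw [LinearMap.zero_apply]
  apply hfix
  simp only [map_pow, aeval_X, LinearMap.coe_sum, Finset.sum_apply, map_sum]
  have h1 : ∀ i, Y ((Y ^ i) v) = (Y ^ (i + 1)) v := by
    intro i; rw [pow_succ', Module.End.mul_apply]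
  simp only [h1]
  have h2 := Finset.sum_range_succ (fun i => (Y ^ i) v) q
  have h3 := Finset.sum_range_succ' (fun i => (Y ^ i) v) q
  rw [h2] at h3
  simp only [hq, pow_zero] at h3
  exact (add_right_cancel h3).symm

theorem prim_of_orbits [Finite V] [Nontrivial V] (hpq : p ≠ q) (Y : Module.End (ZMod p) V) (hq : Y ^ q = 1)
    (hfix : ∀ v, Y v = v → v = 0)
    (htr : ∀ v w : V, v ≠ 0 → w ≠ 0 → ∃ (T : V ≃+ V) (k : ℕ), T v = w ∧ ∀ x, T (Y x) = (Y ^ k) (T x))
    (hgal : ∀ k : ℕ, 0 < k → k < q → ∃ T : V ≃+ V, ∀ x, T (Y x) = (Y ^ k) (T x)) :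
    orderOf (p : ZMod q) = q - 1 := by
  classical
  have hpp : p.Prime := Fact.out
  have hqp : q.Prime := Fact.out
  haveI : Module.Finite (ZMod p) V := inferInstance
  have hcop : p.Coprime q := (Nat.coprime_primes hpp hqp).mpr hpq
  haveI : NeZero ((q : ℕ) : ZMod p) := ⟨by
    intro h
    rw [ZMod.natCast_eq_zero_iff] at h
    exact hpq ((Nat.prime_dvd_prime_iff_eq hpp hqp).mp h)⟩
  set m := minpoly (ZMod p) Y with hm
  have hint : IsIntegral (ZMod p) Y := Algebra.IsIntegral.isIntegral Y
  have hcyc : m ∣ cyclotomic q (ZMod p) := minpoly.dvd _ _ (aeval_cyclotomic hpq Y hq hfix)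
  have hsq : Squarefree m := (squarefree_cyclotomic q (ZMod p)).squarefree_of_dvd hcyc
  have hm0 : aeval Y m = 0 := minpoly.aeval _ _
  have hmne : m ≠ 0 := minpoly.ne_zero hint
  have hnu : ¬ IsUnit m := minpoly.not_isUnit _ _
  have hirr : Irreducible m := by
    refine ⟨hnu, ?_⟩
    intro g h hgh
    by_contra hcon
    rw [not_or] at hcon
    obtain ⟨hg, hh⟩ := hcon
    have hg0 : g ≠ 0 := by rintro rfl; exact hmne (by rw [hgh, zero_mul])
    have hh0 : h ≠ 0 := by rintro rfl; exact hmne (by rw [hgh, mul_zero])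
    have hrel : IsCoprime g h := by
      rw [hgh] at hsq
      exact (IsRelPrime.isCoprime (squarefree_mul_iff.mp hsq).1)
    obtain ⟨a, b, hab⟩ := hrel
    have hgY : aeval Y g ≠ 0 := by
      intro h0
      have h1 : m ∣ g := minpoly.dvd _ _ h0
      rw [hgh] at h1
      obtain ⟨c, hc⟩ := h1
      apply hh
      have h2 : h * c = 1 := by
        apply mul_left_cancel₀ hg0
        rw [mul_one, ← mul_assoc]; exact hc.symm
      exact IsUnit.of_mul_eq_one _ h2
    have hhY : aeval Y h ≠ 0 := by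
      intro h0
      have h1 : m ∣ h := minpoly.dvd _ _ h0
      rw [hgh] at h1
      obtain ⟨c, hc⟩ := h1
      apply hg
      have h2 : g * c = 1 := by
        apply mul_left_cancel₀ hh0
        rw [mul_one]
        calc h * (g * c) = g * h * c := by ring
          _ = h := hc.symm
      exact IsUnit.of_mul_eq_one _ h2
    obtain ⟨u, hu⟩ : ∃ u, aeval Y h u ≠ 0 := by
      by_contra hn; push Not at hn
      exact hhY (LinearMap.ext hn)
    obtain ⟨u', hu'⟩ : ∃ u, aeval Y g u ≠ 0 := by
      by_contra hn; push Not at hn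
      exact hgY (LinearMap.ext hn)
    set v1 := aeval Y h u with hv1
    set v2 := aeval Y g u' with hv2
    have e1 : aeval Y g v1 = 0 := by
      rw [hv1, aeval_aeval, ← hgh, hm0]; rfl
    have e2 : aeval Y h v2 = 0 := by
      rw [hv2, aeval_aeval, mul_comm, ← hgh, hm0]; rfl
    have hone : ∀ x, aeval Y (a * g) x + aeval Y (b * h) x = x := by
      intro x
      have := congrArg (fun f => aeval Y f x) hab
      simp only [map_add, map_one, LinearMap.add_apply, Module.End.one_apply] at this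
      exact this
    have f1 : aeval Y (a * g) v1 = 0 := by rw [← aeval_aeval, e1, map_zero]
    have f2 : aeval Y (b * h) v2 = 0 := by rw [← aeval_aeval, e2, map_zero]
    have g1 : aeval Y (b * h) v1 = v1 := by have := hone v1; rwa [f1, zero_add] at this
    have g2 : aeval Y (a * g) v2 = v2 := by have := hone v2; rwa [f2, add_zero] at this
    have k1 : v1 ∈ cyc Y (v1 + v2) := by
      rw [mem_cyc]; exact ⟨b * h, by rw [map_add, g1, f2, add_zero]⟩
    have k2 : v2 ∈ cyc Y (v1 + v2) := by
      rw [mem_cyc]; exact ⟨a * g, by rw [map_add, g2, f1, zero_add]⟩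
    have hv12 : v1 + v2 ≠ 0 := by
      intro h0
      rw [h0, mem_cyc] at k1
      obtain ⟨f, hf⟩ := k1
      rw [map_zero] at hf
      exact hu hf.symm
    obtain ⟨T, k, hT1, hT2⟩ := htr (v1 + v2) v1 hv12 hu
    have hle : cyc Y v1 ≤ cyc Y (v1 + v2) := by
      intro x hx
      rw [mem_cyc] at hx ⊢
      obtain ⟨f, hf⟩ := hx
      rw [mem_cyc] at k1
      obtain ⟨f', hf'⟩ := k1
      exact ⟨f * f', by rw [← aeval_aeval, hf', hf]⟩
    have hmaps : ∀ x ∈ cyc Y (v1 + v2), T x ∈ cyc Y v1 := by
      intro x hx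
      rw [mem_cyc] at hx ⊢
      obtain ⟨f, hf⟩ := hx
      refine ⟨f.comp (X ^ k), ?_⟩
      rw [← hf, semi_aeval Y T k hT2, hT1, aeval_comp, map_pow, aeval_X]
    have hcard : Nat.card (cyc Y (v1 + v2)) ≤ Nat.card (cyc Y v1) := by
      apply Nat.card_le_card_of_injective (fun x : cyc Y (v1 + v2) => (⟨T x.1, hmaps x.1 x.2⟩ : cyc Y v1))
      intro x y hxy
      have := congrArg Subtype.val hxy
      exact Subtype.ext (T.injective this)
    have heq : (cyc Y v1 : Set V) = cyc Y (v1 + v2) :=
      Set.eq_of_subset_of_ncard_le hle (by rw [← Nat.card_coe_set_eq, ← Nat.card_coe_set_eq]; exact hcard) (Set.toFinite _)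
    have k3 : v2 ∈ cyc Y v1 := by
      have : v2 ∈ (cyc Y v1 : Set V) := by rw [heq]; exact k2
      exact this
    rw [mem_cyc] at k3
    obtain ⟨f, hf⟩ := k3
    have h1 : aeval Y g v2 = 0 := by
      rw [← hf, aeval_aeval, mul_comm, ← aeval_aeval, e1, map_zero]
    have h2 := hone v2
    rw [← aeval_aeval, h1, map_zero, f2, add_zero] at h2
    exact hu' h2.symm
  have hdeg := natDegree_of_dvd_cyclotomic_of_irreducible (K := ZMod p) (p := p) (f := 1) (n := q)
    (by simp) hcop hcyc hirr
  haveI : Fact (Irreducible m) := ⟨hirr⟩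
  -- roots
  have hmexp : ∀ k : ℕ, 0 < k → k < q → m ∣ m.comp (X ^ k) := by
    intro k hk0 hk
    obtain ⟨T, hT⟩ := hgal k hk0 hk
    apply minpoly.dvd
    rw [aeval_comp, map_pow, aeval_X]
    ext y
    obtain ⟨x, rfl⟩ := T.surjective y
    rw [← semi_aeval Y T k hT, hm0]
    simp
  set t : AdjoinRoot m := AdjoinRoot.root m with ht
  haveI hfin : Module.Finite (ZMod p) (AdjoinRoot m) :=
    (minpoly.monic hint).finite_adjoinRoot
  have hζ : IsPrimitiveRoot t q := by
    haveI : NeZero ((q : ℕ) : AdjoinRoot m) := by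
      simpa using! NeZero.of_injective (algebraMap (ZMod p) (AdjoinRoot m)).injective
    rw [← isRoot_cyclotomic_iff]
    have h1 : IsRoot (map (algebraMap (ZMod p) (AdjoinRoot m)) (cyclotomic q (ZMod p))) t :=
      (AdjoinRoot.isRoot_root m).dvd (map_dvd (algebraMap (ZMod p) (AdjoinRoot m)) hcyc)
    rwa [map_cyclotomic] at h1
  have hroots : ∀ k ∈ Finset.Ico 1 q, t ^ k ∈ (m.map (algebraMap (ZMod p) (AdjoinRoot m))).roots.toFinset := by
    intro k hk
    rw [Finset.mem_Ico] at hk
    rw [Multiset.mem_toFinset, mem_roots (Polynomial.map_ne_zero hmne)]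
    obtain ⟨c, hc⟩ := hmexp k hk.1 hk.2
    have h1 : aeval t (m.comp (X ^ k)) = 0 := by
      rw [hc, map_mul, AdjoinRoot.aeval_eq, AdjoinRoot.mk_self, zero_mul]
    rw [aeval_comp, map_pow, aeval_X] at h1
    rw [IsRoot, eval_map_algebraMap]
    exact h1
  have hcardle : q - 1 ≤ m.natDegree := by
    have h1 : ((Finset.Ico 1 q).image (fun k => t ^ k)).card = q - 1 := by
      rw [Finset.card_image_of_injOn, Nat.card_Ico]
      intro i hi j hj hij
      simp only [Finset.coe_Ico, Set.mem_Ico] at hi hj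
      exact hζ.pow_inj hi.2 hj.2 hij
    rw [← h1]
    calc ((Finset.Ico 1 q).image (fun k => t ^ k)).card
        ≤ (m.map (algebraMap (ZMod p) (AdjoinRoot m))).roots.toFinset.card := by
          apply Finset.card_le_card
          intro x hx
          rw [Finset.mem_image] at hx
          obtain ⟨k, hk, rfl⟩ := hx
          exact hroots k hk
      _ ≤ Multiset.card (m.map (algebraMap (ZMod p) (AdjoinRoot m))).roots := Multiset.toFinset_card_le _
      _ ≤ (m.map (algebraMap (ZMod p) (AdjoinRoot m))).natDegree := card_roots' _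
      _ ≤ m.natDegree := natDegree_map_le
  have hle2 : orderOf (ZMod.unitOfCoprime _ (hcop.pow_left 1)) ∣ q - 1 := by
    have := orderOf_dvd_card (x := ZMod.unitOfCoprime _ (hcop.pow_left 1))
    rwa [ZMod.card_units] at this
  have hq1 : 0 < q - 1 := Nat.sub_pos_of_lt hqp.one_lt
  have h3 : orderOf (ZMod.unitOfCoprime _ (hcop.pow_left 1)) = q - 1 :=
    le_antisymm (Nat.le_of_dvd hq1 hle2) (by rw [← hdeg]; exact hcardle)
  rw [← h3, ← orderOf_units]
  simp

end CfsgLib.H7Aut3
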