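import Mathlib
import Cfsg.Agent.LibH7Aut3

set_option autoImplicit false

namespace CfsgLib.H7Aut3

open Polynomial

variable {p q : ℕ} [Fact p.Prime] [Fact q.Prime] {V : Type*} [AddCommGroup V] [Module (ZMod p) V]

/-- linear automorphism moving `v` to `w` -/
theorem exists_linear_moving {K V : Type*} [Field K] [AddCommGroup V] [Module K V] [Finite V] (v w : V)
    (hv : v ≠ 0) (hw : w ≠ 0) : ∃ T : V ≃+ V, T v = w ∧ ∀ (c : K) x, T (c • x) = c • T x := by
  classical
  obtain ⟨f1, hf1⟩ : ∃ f : Module.Dual K V, f v ≠ 0 := by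
    by_contra h; push Not at h
    exact hv ((Module.forall_dual_apply_eq_zero_iff K v).mp h)
  obtain ⟨f2, hf2⟩ : ∃ f : Module.Dual K V, f w ≠ 0 := by
    by_contra h; push Not at h
    exact hw ((Module.forall_dual_apply_eq_zero_iff K w).mp h)
  obtain ⟨f, hfv, hfw⟩ : ∃ f : Module.Dual K V, f v ≠ 0 ∧ f w ≠ 0 := by
    by_cases h1 : f1 w = 0
    · by_cases h2 : f2 v = 0
      · exact ⟨f1 + f2, by simp [h2, hf1], by simp [h1, hf2]⟩
      · exact ⟨f2, h2, hf2⟩
    · exact ⟨f1, hf1, h1⟩
  let T : V →ₗ[K] V := LinearMap.id + (LinearMap.toSpanSingleton K V ((f v)⁻¹ • (w - v))) ∘ₗ f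
  have hT : ∀ x, T x = x + f x • (f v)⁻¹ • (w - v) := by
    intro x; simp [T, LinearMap.toSpanSingleton_apply]
  have hTv : T v = w := by
    rw [hT, smul_smul, mul_inv_cancel₀ hfv, one_smul]; abel
  have hinj : Function.Injective T := by
    rw [injective_iff_map_eq_zero]
    intro x hx
    have h1 := congrArg f (hT x)
    rw [hx, map_zero, map_add, map_smul, map_smul, map_sub, smul_eq_mul, smul_eq_mul] at h1
    have h2 : f x * f w = 0 := by
      field_simp at h1
      linear_combination -h1
    have h3 : f x = 0 := by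
      rcases mul_eq_zero.mp h2 with h | h
      · exact h
      · exact absurd h hfw
    rw [hT, h3, zero_smul, add_zero] at hx
    exact hx
  refine ⟨AddEquiv.ofBijective T.toAddMonoidHom ⟨hinj, Finite.surjective_of_injective hinj⟩, hTv, ?_⟩
  intro c x
  exact map_smul T c x

theorem orbits_of_prim [Finite V] (hpq : p ≠ q) (Y : Module.End (ZMod p) V) (hq : Y ^ q = 1)
    (hfix : ∀ v, Y v = v → v = 0) (hord : orderOf (p : ZMod q) = q - 1) :
    (∀ v w : V, v ≠ 0 → w ≠ 0 → ∃ T : V ≃+ V, T v = w ∧ ∀ x, T (Y x) = Y (T x)) ∧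
    (∀ k : ℕ, ¬ q ∣ k → ∃ T : V ≃+ V, ∀ x, T (Y x) = (Y ^ k) (T x)) := by
  classical
  have hpp : p.Prime := Fact.out
  have hqp : q.Prime := Fact.out
  have hcop : p.Coprime q := (Nat.coprime_primes hpp hqp).mpr hpq
  have hnd : ¬ p ∣ q := fun h => hpq ((Nat.prime_dvd_prime_iff_eq hpp hqp).mp h)
  have hirr : Irreducible (cyclotomic q (ZMod p)) := by
    apply ZMod.irreducible_of_dvd_cyclotomic_of_natDegree hnd dvd_rfl
    rw [natDegree_cyclotomic, Nat.totient_prime hqp, ← hord, ← orderOf_units]
    simp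
  set m := cyclotomic q (ZMod p) with hm
  haveI : Fact (Irreducible m) := ⟨hirr⟩
  have hm0 : aeval Y m = 0 := aeval_cyclotomic hpq Y hq hfix
  let φ : AdjoinRoot m →+* Module.End (ZMod p) V :=
    Ideal.Quotient.lift (Ideal.span {m}) (aeval Y : (ZMod p)[X] →ₐ[ZMod p] Module.End (ZMod p) V).toRingHom (by
      intro a ha
      rw [Ideal.mem_span_singleton] at ha
      obtain ⟨c, rfl⟩ := ha
      have : aeval Y (m * c) = 0 := by rw [map_mul, hm0, zero_mul]
      exact this)
  have hφ : ∀ f : (ZMod p)[X], φ (AdjoinRoot.mk m f) = aeval Y f := fun f => rfl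
  letI : Module (AdjoinRoot m) V := Module.compHom V φ
  have hsm : ∀ (f : (ZMod p)[X]) (x : V), AdjoinRoot.mk m f • x = aeval Y f x := fun f x => rfl
  set t : AdjoinRoot m := AdjoinRoot.root m with ht
  have htx : ∀ x : V, t • x = Y x := by
    intro x
    have := hsm X x
    rw [aeval_X] at this
    exact this
  have htkx : ∀ (k : ℕ) (x : V), t ^ k • x = (Y ^ k) x := by
    intro k
    induction k with
    | zero => intro x; simp
    | succ k ih => intro x; rw [pow_succ', mul_smul, ih, htx, pow_succ', Module.End.mul_apply]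
  have htq : t ^ q = 1 := by
    have h1 : m ∣ X ^ q - 1 := cyclotomic.dvd_X_pow_sub_one q (ZMod p)
    have h2 : AdjoinRoot.mk m (X ^ q - 1) = 0 := AdjoinRoot.mk_eq_zero.mpr h1
    rw [map_sub, map_pow, AdjoinRoot.mk_X, map_one, sub_eq_zero] at h2
    exact h2
  constructor
  · intro v w hv hw
    obtain ⟨T, h1, h2⟩ := exists_linear_moving (K := AdjoinRoot m) v w hv hw
    refine ⟨T, h1, fun x => ?_⟩
    rw [← htx, h2, htx]
  · intro k hk
    haveI hfin : Module.Finite (ZMod p) (AdjoinRoot m) :=
      (cyclotomic.monic q (ZMod p)).finite_adjoinRoot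
    haveI : Finite (AdjoinRoot m) := Module.finite_of_finite (ZMod p)
    haveI : Module.Finite (AdjoinRoot m) V := inferInstance
    haveI : CharP (AdjoinRoot m) p := charP_of_injective_algebraMap (algebraMap (ZMod p) (AdjoinRoot m)).injective p
    haveI : ExpChar (AdjoinRoot m) p := ExpChar.prime hpp
    obtain ⟨j, hj⟩ : ∃ j : ℕ, (p : ZMod q) ^ j = (k : ZMod q) := by
      set u := ZMod.unitOfCoprime p hcop with hu
      have hku : k.Coprime q := ((Nat.Prime.coprime_iff_not_dvd hqp).mpr hk).symm
      have hou : orderOf u = q - 1 := by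
        rw [← hord, ← orderOf_units]; simp [hu]
      have htop : Subgroup.zpowers u = ⊤ := by
        rw [← Subgroup.card_eq_iff_eq_top, Nat.card_zpowers, hou, Nat.card_eq_fintype_card, ZMod.card_units]
      have h1 : ZMod.unitOfCoprime k hku ∈ Subgroup.zpowers u := by rw [htop]; exact Subgroup.mem_top _
      rw [← mem_powers_iff_mem_zpowers] at h1
      obtain ⟨j, hj⟩ := h1
      refine ⟨j, ?_⟩
      have := congrArg Units.val hj
      simpa [hu] using this
    have htk : t ^ (p ^ j) = t ^ k := by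
      have h1 : p ^ j ≡ k [MOD q] := by
        rw [← ZMod.natCast_eq_natCast_iff]; push_cast; exact hj
      exact pow_eq_pow_of_modEq h1 htq
    let b := Module.finBasis (AdjoinRoot m) V
    let F := iterateFrobenius (AdjoinRoot m) p j
    let T0 : V → V := fun x => b.equivFun.symm (fun i => F (b.equivFun x i))
    have hT0 : ∀ x, b.equivFun (T0 x) = fun i => F (b.equivFun x i) := by
      intro x; simp only [T0, LinearEquiv.apply_symm_apply]
    have hadd : ∀ x y, T0 (x + y) = T0 x + T0 y := by
      intro x y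
      apply b.equivFun.injective
      rw [map_add, hT0, hT0, hT0]
      ext i
      rw [map_add, Pi.add_apply, Pi.add_apply, map_add]
    have hinj : Function.Injective T0 := by
      intro x y hxy
      have h1 := congrArg b.equivFun hxy
      rw [hT0, hT0] at h1
      apply b.equivFun.injective
      ext i
      exact F.injective (congrFun h1 i)
    let T1 : V →+ V := AddMonoidHom.mk' T0 hadd
    refine ⟨AddEquiv.ofBijective T1 ⟨hinj, Finite.surjective_of_injective hinj⟩, ?_⟩
    intro x
    show T0 (Y x) = (Y ^ k) (T0 x)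
    rw [← htkx, ← htk, ← htx]
    apply b.equivFun.injective
    rw [hT0, map_smul, map_smul, hT0]
    ext i
    rw [Pi.smul_apply, Pi.smul_apply, smul_eq_mul, smul_eq_mul, map_mul]
    congr 1

end CfsgLib.H7Aut3
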