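import Mathlib
import Cfsg.Agent.LibH7Aut3b
import Cfsg.Agent.LibCoprime2
import Cfsg.Prelude.Def_Transfer

set_option autoImplicit false

namespace CfsgLib.H7Aut3

open Subgroup

section mul

variable {p q : ℕ} [Fact p.Prime] [Fact q.Prime] {P : Type*} [CommGroup P] [Finite P]

theorem iter_aux [Module (ZMod p) (Additive P)] (Y : P →* P) (k : ℕ) (x : P) :
    ((AddMonoidHom.toZModLinearMap p (MonoidHom.toAdditive Y)) ^ k : Module.End (ZMod p) (Additive P)) (Additive.ofMul x)
      = Additive.ofMul (Y^[k] x) := by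
  induction k generalizing x with
  | zero => simp
  | succ k ih =>
    rw [pow_succ, Module.End.mul_apply, Function.iterate_succ_apply, ← ih]
    rfl

theorem prim_of_orbits_mul [Nontrivial P] (hpq : p ≠ q) (he : ∀ x : P, x ^ p = 1) (Y : P →* P)
    (hq : ∀ x, Y^[q] x = x) (hfix : ∀ v, Y v = v → v = 1)
    (htr : ∀ v w : P, v ≠ 1 → w ≠ 1 → ∃ (T : P ≃* P) (k : ℕ), T v = w ∧ ∀ x, T (Y x) = Y^[k] (T x))
    (hgal : ∀ k : ℕ, 0 < k → k < q → ∃ T : P ≃* P, ∀ x, T (Y x) = Y^[k] (T x)) :
    orderOf (p : ZMod q) = q - 1 := by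
  letI : Module (ZMod p) (Additive P) := AddCommGroup.zmodModule (n := p) (by
    intro x
    apply Additive.toMul.injective
    exact he _)
  refine prim_of_orbits (V := Additive P) hpq (AddMonoidHom.toZModLinearMap p (MonoidHom.toAdditive Y)) ?_ ?_ ?_ ?_
  · ext x
    rw [show x = Additive.ofMul (Additive.toMul x) from rfl, iter_aux, hq]; rfl
  · intro v hv
    have := hfix (Additive.toMul v) hv
    exact this
  · intro v w hv hw
    obtain ⟨T, k, h1, h2⟩ := htr (Additive.toMul v) (Additive.toMul w) hv hw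
    refine ⟨MulEquiv.toAdditive T, k, h1, ?_⟩
    intro x
    have h3 := h2 (Additive.toMul x)
    have h4 := iter_aux (p := p) Y k (T (Additive.toMul x))
    exact (congrArg Additive.ofMul h3).trans h4.symm
  · intro k hk0 hk
    obtain ⟨T, h2⟩ := hgal k hk0 hk
    refine ⟨MulEquiv.toAdditive T, ?_⟩
    intro x
    have h3 := h2 (Additive.toMul x)
    have h4 := iter_aux (p := p) Y k (T (Additive.toMul x))
    exact (congrArg Additive.ofMul h3).trans h4.symm

theorem orbits_of_prim_mul (hpq : p ≠ q) (he : ∀ x : P, x ^ p = 1) (Y : P →* P)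
    (hq : ∀ x, Y^[q] x = x) (hfix : ∀ v, Y v = v → v = 1) (hord : orderOf (p : ZMod q) = q - 1) :
    (∀ v w : P, v ≠ 1 → w ≠ 1 → ∃ T : P ≃* P, T v = w ∧ ∀ x, T (Y x) = Y (T x)) ∧
    (∀ k : ℕ, ¬ q ∣ k → ∃ T : P ≃* P, ∀ x, T (Y x) = Y^[k] (T x)) := by
  letI : Module (ZMod p) (Additive P) := AddCommGroup.zmodModule (n := p) (by
    intro x
    apply Additive.toMul.injective
    exact he _)
  obtain ⟨h1, h2⟩ := orbits_of_prim (V := Additive P) hpq (AddMonoidHom.toZModLinearMap p (MonoidHom.toAdditive Y))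
    (by ext x
        rw [show x = Additive.ofMul (Additive.toMul x) from rfl, iter_aux, hq]; rfl)
    (by intro v hv
        have := hfix (Additive.toMul v) hv
        exact this) hord
  constructor
  · intro v w hv hw
    obtain ⟨T, h3, h4⟩ := h1 (Additive.ofMul v) (Additive.ofMul w) hv hw
    exact ⟨MulEquiv.toAdditive.symm T, h3, fun x => h4 (Additive.ofMul x)⟩
  · intro k hk
    obtain ⟨T, h4⟩ := h2 k hk
    refine ⟨MulEquiv.toAdditive.symm T, fun x => ?_⟩
    have h5 := h4 (Additive.ofMul x)
    have h6 := iter_aux (p := p) Y k (Additive.toMul (T (Additive.ofMul x)))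
    exact h5.trans h6

end mul

section fwd

variable {G : Type*} [Group G] [Finite G]

theorem conj_iter (P : Subgroup G) [P.Normal] (y : G) (k : ℕ) (x : P) :
    (((MulAut.conjNormal y : MulAut P).toMonoidHom)^[k] x : P) = (MulAut.conjNormal (y ^ k) : MulAut P) x := by
  induction k generalizing x with
  | zero => simp
  | succ k ih =>
    rw [Function.iterate_succ_apply, ih]
    apply Subtype.ext
    show ((MulAut.conjNormal (y ^ k) : MulAut P) ((MulAut.conjNormal y : MulAut P) x) : G) = _
    rw [MulAut.conjNormal_apply, MulAut.conjNormal_apply, MulAut.conjNormal_apply]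
    group

/-- restriction of an automorphism to a subgroup it preserves -/
theorem restrict_equiv (P : Subgroup G) (φ : MulAut G) (h : ∀ x ∈ P, φ x ∈ P) :
    ∃ T : P ≃* P, ∀ x : P, ((T x : P) : G) = φ x := by
  let f : P →* P := (φ.toMonoidHom.comp P.subtype).codRestrict P (fun x => h x x.2)
  have hinj : Function.Injective f := by
    intro a b hab
    apply Subtype.ext
    apply φ.injective
    exact congrArg Subtype.val hab
  exact ⟨MulEquiv.ofBijective f ⟨hinj, Finite.surjective_of_injective hinj⟩, fun x => rfl⟩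

theorem forward_core (p q : ℕ) [Fact p.Prime] [Fact q.Prime] (hpq : p ≠ q)
    (hord : ∀ g : G, g ≠ 1 → orderOf g = p ∨ orderOf g = q)
    (htp : ∀ a b : G, orderOf a = p → orderOf b = p → ∃ φ : MulAut G, φ a = b)
    (htq : ∀ a b : G, orderOf a = q → orderOf b = q → ∃ φ : MulAut G, φ a = b)
    (hpd : p ∣ Nat.card G) (hqd : q ∣ Nat.card G)
    (hpr : ∀ r : ℕ, r.Prime → r ∣ Nat.card G → r = p ∨ r = q)
    (D : Subgroup G) (hDch : ∀ φ : MulAut G, ∀ x ∈ D, φ x ∈ D) (hDc : ∀ x ∈ D, ∀ y ∈ D, x * y = y * x)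
    (x0 : G) (hx0 : x0 ∈ D) (hx0p : orderOf x0 = p) :
    ∃ n, 1 ≤ n ∧ Nat.card G = p ^ n * q ∧
      (∀ P : Sylow p G, (P : Subgroup G).Normal ∧ Cfsg.IsElementaryAbelian p (P : Subgroup G)) ∧
      orderOf (p : ZMod q) = q - 1 ∧
      ∀ x y : G, orderOf x = q → orderOf y = p → x * y * x⁻¹ ≠ y := by
  classical
  have hpp : p.Prime := Fact.out
  have hqp : q.Prime := Fact.out
  have hcop : p.Coprime q := (Nat.coprime_primes hpp hqp).mpr hpq
  have hD : ∀ x : G, orderOf x = p → x ∈ D := by
    intro x hx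
    obtain ⟨φ, rfl⟩ := htp x0 x hx0p hx
    exact hDch φ x0 hx0
  have hD' : ∀ x : G, x ^ p = 1 → x ∈ D := by
    intro x hx
    rcases (Nat.dvd_prime hpp).mp (orderOf_dvd_of_pow_eq_one hx) with h | h
    · rw [orderOf_eq_one_iff.mp h]; exact D.one_mem
    · exact hD x h
  have hcomm : ∀ x y : G, orderOf x = q → orderOf y = p → x * y ≠ y * x := by
    intro x y hx hy hxy
    have h1 : orderOf (x * y) = q * p := by
      rw [Commute.orderOf_mul_eq_mul_orderOf_of_coprime hxy (by rw [hx, hy]; exact hcop.symm), hx, hy]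
    have h2 : x * y ≠ 1 := by
      intro h
      rw [h, orderOf_one] at h1
      have := Nat.eq_one_of_mul_eq_one_left h1.symm
      exact hpp.one_lt.ne' this
    rcases hord _ h2 with h | h
    · rw [h] at h1
      have h3 : q = 1 := by
        have : 1 * p = q * p := by rw [one_mul]; exact h1
        exact (Nat.eq_of_mul_eq_mul_right hpp.pos this).symm
      exact hqp.one_lt.ne' h3
    · rw [h] at h1
      have h3 : p = 1 := by
        have : q * 1 = q * p := by rw [mul_one]; exact h1
        exact (Nat.eq_of_mul_eq_mul_left hqp.pos this).symm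
      exact hpp.one_lt.ne' h3
  -- elements of a p-subgroup
  have hPel : ∀ P : Sylow p G, ∀ x ∈ (P : Subgroup G), x ^ p = 1 := by
    intro P x hx
    by_cases h1 : x = 1
    · rw [h1, one_pow]
    rcases hord x h1 with h | h
    · rw [← h]; exact pow_orderOf_eq_one x
    · exfalso
      obtain ⟨k, hk⟩ := (IsPGroup.iff_orderOf.mp P.isPGroup') ⟨x, hx⟩
      rw [Subgroup.orderOf_mk, h] at hk
      rcases Nat.eq_zero_or_pos k with h0 | h0
      · rw [h0, pow_zero] at hk; exact hqp.one_lt.ne' hk
      · have : p ∣ q := by rw [hk]; exact dvd_pow_self p h0.ne'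
        exact hpq ((Nat.prime_dvd_prime_iff_eq hpp hqp).mp this)
  have hPc : ∀ P : Sylow p G, ∀ x ∈ (P : Subgroup G), ∀ y ∈ (P : Subgroup G), x * y = y * x := by
    intro P x hx y hy
    exact hDc x (hD' x (hPel P x hx)) y (hD' y (hPel P y hy))
  have hPmem : ∀ P : Sylow p G, ∀ x : G, x ^ p = 1 → x ∈ (P : Subgroup G) := by
    intro P x hx
    have hz : IsPGroup p (zpowers x) := by
      rw [IsPGroup.iff_card, Nat.card_zpowers]
      rcases (Nat.dvd_prime hpp).mp (orderOf_dvd_of_pow_eq_one hx) with h | h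
      · exact ⟨0, by rw [h, pow_zero]⟩
      · exact ⟨1, by rw [h, pow_one]⟩
    have hn : zpowers x ≤ normalizer ((P : Subgroup G) : Set G) := by
      rw [zpowers_le, mem_normalizer_iff]
      have hxD := hD' x hx
      intro h
      constructor
      · intro hh
        have : x * h = h * x := hDc x hxD h (hD' h (hPel P h hh))
        rw [this, mul_inv_cancel_right]; exact hh
      · intro hh
        have h2 := hDc x hxD _ (hD' _ (hPel P _ hh))
        have h3 : x * h * x⁻¹ = h := by
          have : x * h = h * x := by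
            have h4 : x * (x * h * x⁻¹) * x = x * h * x⁻¹ * x * x := by rw [h2]
            have h5 : x * (x * h) = x * h * x := by
              calc x * (x * h) = x * (x * h * x⁻¹) * x := by group
                _ = x * h * x⁻¹ * x * x := h4
                _ = x * h * x := by group
            rw [mul_assoc] at h5
            exact mul_left_cancel h5
          rw [this, mul_inv_cancel_right]
        rwa [h3] at hh
    have hsup : IsPGroup p ((zpowers x ⊔ (P : Subgroup G) : Subgroup G)) :=
      hz.to_sup_of_normal_right' P.isPGroup' hn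
    have := P.is_maximal' hsup le_sup_right
    rw [← this]
    exact (le_sup_left : zpowers x ≤ _) (mem_zpowers x)
  have hPn : ∀ P : Sylow p G, (P : Subgroup G).Normal := by
    intro P
    refine ⟨fun x hx g => hPmem P _ ?_⟩
    rw [conj_pow, hPel P x hx, mul_one, mul_inv_cancel]
  obtain ⟨P⟩ : Nonempty (Sylow p G) := inferInstance
  haveI := hPn P
  have hPne : (P : Subgroup G) ≠ ⊥ := P.ne_bot_of_dvd_card hpd
  -- q ^ 2 does not divide the order
  have hq2 : ¬ q ^ 2 ∣ Nat.card G := by
    intro hq2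
    obtain ⟨E, hE⟩ := Sylow.exists_subgroup_card_pow_prime q hq2
    have hEc : ∀ a b : E, a * b = b * a := IsPGroup.commutative_of_card_eq_prime_sq hE
    haveI : IsMulCommutative E := ⟨⟨hEc⟩⟩
    have hEord : ∀ x ∈ E, x ≠ 1 → orderOf x = q := by
      intro x hx h1
      rcases hord x h1 with h | h
      · exfalso
        have h2 : orderOf x ∣ q ^ 2 := by
          rw [← hE]
          exact Subgroup.orderOf_dvd_natCard E hx
        rw [h] at h2
        exact hpq ((Nat.prime_dvd_prime_iff_eq hpp hqp).mp (hpp.dvd_of_dvd_pow h2))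
      · exact h
    have hEnc : ¬ IsCyclic E := by
      intro hcyc
      obtain ⟨g, hg⟩ := hcyc.exists_generator
      have h1 : orderOf g = q ^ 2 := by
        rw [orderOf_eq_card_of_forall_mem_zpowers hg, hE]
      by_cases hg1 : (g : G) = 1
      · have : g = 1 := Subtype.ext hg1
        rw [this, orderOf_one] at h1
        exact (Nat.one_lt_pow two_ne_zero hqp.one_lt).ne h1
      · have h2 := hEord g g.2 hg1
        rw [Subgroup.orderOf_coe, h1, sq] at h2
        have h3 : q * q = q * 1 := by rw [mul_one]; exact h2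
        exact hqp.one_lt.ne' (Nat.eq_of_mul_eq_mul_left hqp.pos h3)
    have hcopE : (Nat.card E).Coprime (Nat.card (P : Subgroup G)) := by
      obtain ⟨k, hk⟩ := IsPGroup.iff_card.mp P.isPGroup'
      rw [hE, hk]
      exact Nat.Coprime.pow _ _ hcop.symm
    have hgen := CfsgLib.Coprime2.generation_noncyclic hEnc (K := (P : Subgroup G))
      (by rw [normalizer_eq_top]; exact le_top) hcopE
    apply hPne
    rw [← hgen, eq_bot_iff]
    apply iSup₂_le
    rintro a ⟨haE, ha1⟩ x ⟨hxP, hxC⟩
    rw [mem_bot]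
    by_contra hx1
    have h1 := hEord a haE ha1
    have h2 : orderOf x = p := by
      rcases (Nat.dvd_prime hpp).mp (orderOf_dvd_of_pow_eq_one (hPel P x hxP)) with h | h
      · exact absurd (orderOf_eq_one_iff.mp h) hx1
      · exact h
    have h3 := mem_centralizer_singleton_iff.mp hxC
    exact hcomm a x h1 h2 h3.symm
  -- cardinality
  obtain ⟨n, hn⟩ := IsPGroup.iff_card.mp P.isPGroup'
  have hn1 : 1 ≤ n := by
    by_contra h0
    have : n = 0 := by omega
    rw [this, pow_zero] at hn
    exact hPne (Subgroup.card_eq_one.mp hn)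
  have hcardG : Nat.card G = p ^ n * q := by
    obtain ⟨m, hm⟩ := Subgroup.card_subgroup_dvd_card (P : Subgroup G)
    rw [hn] at hm
    have hpm : ¬ p ∣ m := by
      have h1 := P.not_dvd_index
      have h2 := (P : Subgroup G).card_mul_index
      rw [hn, hm] at h2
      rwa [Nat.eq_of_mul_eq_mul_left (pow_pos hpp.pos n) h2] at h1
    have hqm : q ∣ m := by
      rw [hm] at hqd
      exact (Nat.Coprime.dvd_mul_left ((Nat.Coprime.pow_left n hcop).symm)).mp hqd
    obtain ⟨m', hm'⟩ := hqm
    have hm'1 : m' = 1 := by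
      by_contra hne
      obtain ⟨r, hr, hrd⟩ := Nat.exists_prime_and_dvd hne
      rcases hpr r hr (by rw [hm, hm']; exact (hrd.mul_left q).mul_left _) with h | h
      · rw [h] at hrd
        exact hpm (by rw [hm']; exact hrd.mul_left q)
      · rw [h] at hrd
        apply hq2
        rw [hm, hm', sq]
        exact (Nat.mul_dvd_mul_left q hrd).mul_left _
    rw [hm, hm', hm'1, mul_one]
  -- the element y
  obtain ⟨y, hy⟩ := exists_prime_orderOf_dvd_card' (G := G) q hqd
  have hfp : ∀ x y : G, orderOf x = q → orderOf y = p → x * y * x⁻¹ ≠ y := by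
    intro x y hx hy h
    exact hcomm x y hx hy (by rw [mul_inv_eq_iff_eq_mul] at h; exact h)
  have hphi : ∀ φ : MulAut G, ∀ x ∈ (P : Subgroup G), φ x ∈ (P : Subgroup G) := by
    intro φ x hx
    apply hPmem
    rw [← map_pow, hPel P x hx, map_one]
  refine ⟨n, hn1, hcardG, fun P' => ⟨hPn P', ⟨⟨fun a b => Subtype.ext (hPc P' a a.2 b b.2)⟩⟩, hPel P'⟩, ?_, hfp⟩
  letI cg : CommGroup (P : Subgroup G) :=
    { (inferInstance : Group (P : Subgroup G)) with mul_comm := fun a b => Subtype.ext (hPc P a a.2 b b.2) }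
  haveI : Nontrivial (P : Subgroup G) := (Subgroup.nontrivial_iff_ne_bot _).mpr hPne
  have hordP : ∀ v : (P : Subgroup G), v ≠ 1 → orderOf (v : G) = p := by
    intro v hv
    rcases (Nat.dvd_prime hpp).mp (orderOf_dvd_of_pow_eq_one (hPel P v v.2)) with h | h
    · exact absurd (Subtype.ext (orderOf_eq_one_iff.mp h)) hv
    · exact h
  refine prim_of_orbits_mul (P := (P : Subgroup G)) hpq (fun x => Subtype.ext (hPel P x x.2))
    (MulAut.conjNormal y : MulAut (P : Subgroup G)).toMonoidHom ?_ ?_ ?_ ?_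
  · intro x
    rw [conj_iter, ← hy, pow_orderOf_eq_one]
    simp
  · intro v hv
    by_contra hv1
    have h1 : y * v * y⁻¹ = v := by
      have := congrArg Subtype.val hv
      rw [← MulAut.conjNormal_apply]
      exact this
    exact hfp y v hy (hordP v hv1) h1
  · intro v w hv hw
    obtain ⟨φ, hφ⟩ := htp v w (hordP v hv) (hordP w hw)
    -- adjust
    have hcardQ : Nat.card (zpowers y) = q := by rw [Nat.card_zpowers, hy]
    have hcardQ' : Nat.card (zpowers (φ y)) = q := by
      rw [Nat.card_zpowers, MulEquiv.orderOf_eq, hy]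
    have hfac : (Nat.card G).factorization q = 1 := by
      rw [hcardG, Nat.factorization_mul (pow_pos hpp.pos n).ne' hqp.ne_zero, Finsupp.add_apply,
        hpp.factorization_pow, hqp.factorization, Finsupp.single_eq_same, Finsupp.single_eq_of_ne (by exact hpq.symm)]
    let Q1 : Sylow q G := Sylow.ofCard (zpowers y) (by rw [hcardQ, hfac, pow_one])
    let Q2 : Sylow q G := Sylow.ofCard (zpowers (φ y)) (by rw [hcardQ', hfac, pow_one])
    obtain ⟨g, hg⟩ := MulAction.exists_smul_eq G Q2 Q1
    have hg' : ∀ x, x ∈ zpowers (φ y) → g * x * g⁻¹ ∈ zpowers y := by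
      intro x hx
      have h1 : g * x * g⁻¹ ∈ ((g • Q2 : Sylow q G) : Subgroup G) := by
        rw [Sylow.coe_subgroup_smul]
        exact Subgroup.smul_mem_pointwise_smul x (MulAut.conj g) _ hx
      rw [hg] at h1
      exact h1
    have hcompl : (P : Subgroup G).IsComplement' (zpowers y) := by
      apply Subgroup.isComplement'_of_coprime
      · rw [hn, hcardQ, hcardG]
      · rw [hn, hcardQ]; exact Nat.Coprime.pow_left n hcop
    obtain ⟨⟨c, a⟩, hca⟩ := hcompl.symm.2 g
    have hca' : (c : G) * a = g := hca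
    have hpsi : ∀ x, x ∈ zpowers (φ y) → a * x * (a : G)⁻¹ ∈ zpowers y := by
      intro x hx
      have h1 := hg' x hx
      have h2 : a * x * (a : G)⁻¹ = (c : G)⁻¹ * (g * x * g⁻¹) * c := by rw [← hca']; group
      rw [h2]
      exact (zpowers y).mul_mem ((zpowers y).mul_mem ((zpowers y).inv_mem c.2) h1) c.2
    obtain ⟨k, hk⟩ : ∃ k : ℕ, y ^ k = a * φ y * (a : G)⁻¹ := by
      have := hpsi _ (mem_zpowers _)
      rw [← mem_powers_iff_mem_zpowers] at this
      obtain ⟨k, hk⟩ := this
      exact ⟨k, hk⟩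
    obtain ⟨T, hT⟩ := restrict_equiv (P : Subgroup G) (φ.trans (MulAut.conj (a : G))) (by
      intro x hx
      show a * φ x * (a : G)⁻¹ ∈ _
      exact (hPn P).conj_mem _ (hphi φ x hx) a)
    have hT' : ∀ x : (P : Subgroup G), ((T x : (P : Subgroup G)) : G) = a * φ x * (a : G)⁻¹ := hT
    refine ⟨T, k, ?_, ?_⟩
    · apply Subtype.ext
      rw [hT', hφ]
      rw [hPc P a a.2 w w.2, mul_inv_cancel_right]
    · intro x
      rw [conj_iter]
      apply Subtype.ext
      rw [MulAut.conjNormal_apply, hT', hk, hT']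
      have : ((((MulAut.conjNormal y : MulAut (P : Subgroup G)).toMonoidHom x : (P : Subgroup G))) : G) = y * x * y⁻¹ :=
        MulAut.conjNormal_apply y x
      rw [this, map_mul, map_mul, map_inv]
      group
  · intro k hk0 hk
    have hyk : orderOf (y ^ k) = q := by
      rw [orderOf_pow, hy]
      have : Nat.gcd q k = 1 := Nat.coprime_of_lt_prime hk0.ne' hk hqp
      rw [this, Nat.div_one]
    obtain ⟨φ, hφ⟩ := htq y (y ^ k) hy hyk
    obtain ⟨T, hT⟩ := restrict_equiv (P : Subgroup G) φ (hphi φ)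
    refine ⟨T, fun x => ?_⟩
    rw [conj_iter]
    apply Subtype.ext
    rw [MulAut.conjNormal_apply, hT, hT]
    have : ((((MulAut.conjNormal y : MulAut (P : Subgroup G)).toMonoidHom x : (P : Subgroup G))) : G) = y * x * y⁻¹ :=
      MulAut.conjNormal_apply y x
    rw [this, map_mul, map_mul, map_inv, hφ]

end fwd

end CfsgLib.H7Aut3
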