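import Mathlib
import Cfsg.Agent.LibH7Aut3c

set_option autoImplicit false

namespace CfsgLib.H7Aut3

open Subgroup

section bwd

variable {G : Type*} [Group G] [Finite G]

theorem pow_equiv (Q : Subgroup G) (hQc : ∀ x ∈ Q, ∀ y ∈ Q, x * y = y * x) (k : ℕ) (hk : (Nat.card Q).Coprime k) :
    ∃ s : Q ≃* Q, ∀ x, s x = x ^ k := by
  let f : Q →* Q :=
    { toFun := fun x => x ^ k
      map_one' := one_pow k
      map_mul' := fun a b => Commute.mul_pow (Subtype.ext (hQc a a.2 b b.2)) k }
  have hb : Function.Bijective f := (powCoprime hk).bijective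
  exact ⟨MulEquiv.ofBijective f hb, fun x => rfl⟩

/-- extend a compatible automorphism -/
theorem extend_aut (P : Subgroup G) [P.Normal] (y : G) (hcompl : P.IsComplement' (zpowers y)) (k : ℕ)
    (hk : (orderOf y).Coprime k) (T : P ≃* P)
    (hT : ∀ x : P, T ((MulAut.conjNormal y : MulAut P) x) = (MulAut.conjNormal (y ^ k) : MulAut P) (T x)) :
    ∃ ψ : MulAut G, ψ y = y ^ k ∧ ∀ x : P, ψ x = T x := by
  obtain ⟨s, hs⟩ := pow_equiv (zpowers y) (by
    intro a ha b hb
    obtain ⟨i, rfl⟩ := ha
    obtain ⟨j, rfl⟩ := hb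
    exact (zpow_mul_comm y i j)) k (by rw [Nat.card_zpowers]; exact hk)
  let E := SemidirectProduct.mulEquivSubgroup hcompl
  have hTn : ∀ (i : ℕ) (x : P), T ((MulAut.conjNormal (y ^ i) : MulAut P) x) =
      (MulAut.conjNormal ((y ^ i) ^ k) : MulAut P) (T x) := by
    intro i
    induction i with
    | zero => intro x; simp
    | succ i ih =>
      intro x
      rw [pow_succ, map_mul, MulAut.mul_apply, ih, hT, ← MulAut.mul_apply, ← map_mul]
      congr 2
      rw [← pow_mul, ← pow_add, ← pow_succ, ← pow_mul]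
      congr 1
      ring
  have hcond : ∀ g : zpowers y, (((P.normalizerMonoidHom).comp (inclusion (P.normalizer_eq_top ▸ le_top))) g : MulAut P).trans T
      = T.trans (((P.normalizerMonoidHom).comp (inclusion (P.normalizer_eq_top ▸ le_top))) (s g) : MulAut P) := by
    intro g
    obtain ⟨g, hg⟩ := g
    have hg' := hg
    rw [← mem_powers_iff_mem_zpowers] at hg'
    obtain ⟨i, rfl⟩ := hg'
    ext x
    have h1 := congrArg Subtype.val (hTn i x)
    rw [MulAut.conjNormal_apply] at h1
    have h2 : ((T.trans (((P.normalizerMonoidHom).comp (inclusion (P.normalizer_eq_top ▸ le_top)))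
        (s ⟨y ^ i, hg⟩) : MulAut P)) x : G) = (y ^ i) ^ k * T x * ((y ^ i) ^ k)⁻¹ := by
      rw [hs]; rfl
    rw [h2, ← h1]
    congr 1
  let ψ : MulAut G := (E.symm.trans (SemidirectProduct.congr T s hcond)).trans E
  have hE1 : ∀ x : P, E (SemidirectProduct.inl x) = x := by
    intro x
    show ((x : P) : G) * ((1 : zpowers y) : G) = x
    simp
  have hE2 : ∀ x : zpowers y, E (SemidirectProduct.inr x) = x := by
    intro x
    show ((1 : P) : G) * (x : G) = x
    simp
  refine ⟨ψ, ?_, ?_⟩
  · have h1 : E.symm y = SemidirectProduct.inr ⟨y, mem_zpowers y⟩ := by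
      rw [MulEquiv.symm_apply_eq, hE2]
    show E (SemidirectProduct.congr T s hcond (E.symm y)) = y ^ k
    rw [h1]
    have h2 : SemidirectProduct.congr T s hcond (SemidirectProduct.inr ⟨y, mem_zpowers y⟩) =
        SemidirectProduct.inr (s ⟨y, mem_zpowers y⟩) := by
      apply SemidirectProduct.ext
      · show T 1 = 1
        exact map_one T
      · rfl
    rw [h2, hE2, hs]
    rfl
  · intro x
    have h1 : E.symm x = SemidirectProduct.inl x := by
      rw [MulEquiv.symm_apply_eq, hE1]
    show E (SemidirectProduct.congr T s hcond (E.symm x)) = T x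
    rw [h1]
    have h2 : SemidirectProduct.congr T s hcond (SemidirectProduct.inl x) =
        SemidirectProduct.inl (T x) := by
      apply SemidirectProduct.ext
      · rfl
      · show s 1 = 1
        exact map_one s
    rw [h2, hE1]

theorem backward_core (p q n : ℕ) [Fact p.Prime] [Fact q.Prime] (hpq : p ≠ q)
    (hcardG : Nat.card G = p ^ n * q)
    (hP0 : ∀ P : Sylow p G, (P : Subgroup G).Normal ∧ Cfsg.IsElementaryAbelian p (P : Subgroup G))
    (hprim : orderOf (p : ZMod q) = q - 1)
    (hfp : ∀ x y : G, orderOf x = q → orderOf y = p → x * y * x⁻¹ ≠ y) :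
    (∀ g : G, g ≠ 1 → orderOf g = p ∨ orderOf g = q) ∧
    (∀ a b : G, orderOf a = p → orderOf b = p → ∃ φ : MulAut G, φ a = b) ∧
    (∀ a b : G, orderOf a = q → orderOf b = q → ∃ φ : MulAut G, φ a = b) := by
  classical
  have hpp : p.Prime := Fact.out
  have hqp : q.Prime := Fact.out
  have hcop : p.Coprime q := (Nat.coprime_primes hpp hqp).mpr hpq
  obtain ⟨P⟩ : Nonempty (Sylow p G) := inferInstance
  obtain ⟨hPn, hPa, hPel⟩ := hP0 P
  have hPc : ∀ x ∈ (P : Subgroup G), ∀ y ∈ (P : Subgroup G), x * y = y * x := fun x hx y hy =>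
    congrArg Subtype.val (hPa.is_comm.comm ⟨x, hx⟩ ⟨y, hy⟩)
  have hfacp : (Nat.card G).factorization p = n := by
    rw [hcardG, Nat.factorization_mul (pow_pos hpp.pos n).ne' hqp.ne_zero, Finsupp.add_apply,
      hpp.factorization_pow, hqp.factorization, Finsupp.single_eq_same, Finsupp.single_eq_of_ne (by exact hpq), add_zero]
  have hfacq : (Nat.card G).factorization q = 1 := by
    rw [hcardG, Nat.factorization_mul (pow_pos hpp.pos n).ne' hqp.ne_zero, Finsupp.add_apply,
      hpp.factorization_pow, hqp.factorization, Finsupp.single_eq_same, Finsupp.single_eq_of_ne (by exact hpq.symm)]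
  have hn : Nat.card (P : Subgroup G) = p ^ n := by rw [P.card_eq_multiplicity, hfacp]
  obtain ⟨y, hy⟩ := exists_prime_orderOf_dvd_card' (G := G) q (by rw [hcardG]; exact dvd_mul_left _ _)
  have hcardQ : Nat.card (zpowers y) = q := by rw [Nat.card_zpowers, hy]
  have hcompl : (P : Subgroup G).IsComplement' (zpowers y) := by
    apply Subgroup.isComplement'_of_coprime
    · rw [hn, hcardQ, hcardG]
    · rw [hn, hcardQ]; exact Nat.Coprime.pow_left n hcop
  have hordP : ∀ v ∈ (P : Subgroup G), v ≠ 1 → orderOf (v : G) = p := by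
    intro v hvP hv
    rcases (Nat.dvd_prime hpp).mp (orderOf_dvd_of_pow_eq_one (hPel v hvP)) with h | h
    · exact absurd (orderOf_eq_one_iff.mp h) hv
    · exact h
  have hPmem : ∀ v : G, orderOf v = p → v ∈ (P : Subgroup G) := by
    intro v hv
    have hz : IsPGroup p (zpowers v) := by
      rw [IsPGroup.iff_card, Nat.card_zpowers]
      exact ⟨1, by rw [hv, pow_one]⟩
    obtain ⟨R, hR⟩ := hz.exists_le_sylow
    haveI := hPn
    haveI := Sylow.unique_of_normal P hPn
    have : R = P := Subsingleton.elim _ _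
    rw [this] at hR
    exact hR (mem_zpowers v)
  -- orders
  have hord : ∀ g : G, g ≠ 1 → orderOf g = p ∨ orderOf g = q := by
    intro g hg
    by_cases hgP : g ∈ (P : Subgroup G)
    · left; exact hordP g hgP hg
    right
    have hdvd : orderOf g ∣ p ^ n * q := by rw [← hcardG]; exact orderOf_dvd_natCard g
    -- g ^ q ∈ P
    have hgq : g ^ q ∈ (P : Subgroup G) := by
      have h1 : (QuotientGroup.mk' (P : Subgroup G) g) ^ q = 1 := by
        have h2 : Nat.card (G ⧸ (P : Subgroup G)) = q := by
          have h3 := (P : Subgroup G).card_mul_index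
          rw [hn, hcardG] at h3
          exact Nat.eq_of_mul_eq_mul_left (pow_pos hpp.pos n) h3
        rw [← h2]; exact pow_card_eq_one'
      rw [← map_pow] at h1
      exact (QuotientGroup.eq_one_iff _).mp h1
    by_cases hgq1 : g ^ q = 1
    · rcases (Nat.dvd_prime hqp).mp (orderOf_dvd_of_pow_eq_one hgq1) with h | h
      · exact absurd (orderOf_eq_one_iff.mp h) hg
      · exact h
    exfalso
    have h1 := hordP _ hgq hgq1
    have h2 : orderOf (g ^ p) = q := by
      have h3 : (g ^ p) ^ q = 1 := by rw [← pow_mul, mul_comm, pow_mul, ← h1, pow_orderOf_eq_one]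
      rcases (Nat.dvd_prime hqp).mp (orderOf_dvd_of_pow_eq_one h3) with h | h
      · exfalso
        have h4 := orderOf_eq_one_iff.mp h
        have h5 : orderOf (g ^ q) ∣ 1 := by
          have h6 : orderOf g ∣ p := orderOf_dvd_of_pow_eq_one h4
          rcases (Nat.dvd_prime hpp).mp h6 with h7 | h7
          · rw [orderOf_eq_one_iff.mp h7] at hg; exact absurd rfl hg
          · exact absurd (hPmem g h7) hgP
        rw [h1, Nat.dvd_one] at h5
        exact hpp.one_lt.ne' h5
      · exact h
    apply hfp (g ^ p) (g ^ q) h2 h1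
    group
  letI cg : CommGroup (P : Subgroup G) :=
    { (inferInstance : Group (P : Subgroup G)) with mul_comm := fun a b => Subtype.ext (hPc a a.2 b b.2) }
  obtain ⟨h1, h2⟩ := orbits_of_prim_mul (P := (P : Subgroup G)) hpq (fun x => Subtype.ext (hPel x x.2))
    (MulAut.conjNormal y : MulAut (P : Subgroup G)).toMonoidHom
    (by intro x
        rw [conj_iter, ← hy, pow_orderOf_eq_one]
        simp)
    (by intro v hv
        by_contra hv1
        have h1 : y * v * y⁻¹ = v := by
          have := congrArg Subtype.val hv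
          rw [← MulAut.conjNormal_apply]
          exact this
        exact hfp y v hy (hordP v v.2 (fun h => hv1 (Subtype.ext h))) h1) hprim
  refine ⟨hord, ?_, ?_⟩
  · intro a b ha hb
    obtain ⟨T, hT1, hT2⟩ := h1 ⟨a, hPmem a ha⟩ ⟨b, hPmem b hb⟩
      (by intro h
          have := congrArg Subtype.val h
          simp only [coe_one] at this
          rw [this, orderOf_one] at ha; exact hpp.one_lt.ne ha)
      (by intro h
          have := congrArg Subtype.val h
          simp only [coe_one] at this
          rw [this, orderOf_one] at hb; exact hpp.one_lt.ne hb)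
    obtain ⟨ψ, hψ1, hψ2⟩ := extend_aut (P : Subgroup G) y hcompl 1 (Nat.coprime_one_right _) T (by
      intro x
      rw [pow_one]
      exact hT2 x)
    refine ⟨ψ, ?_⟩
    have := hψ2 ⟨a, hPmem a ha⟩
    rw [hT1] at this
    exact this
  · -- all elements of order q are in the orbit of y
    have key : ∀ b : G, orderOf b = q → ∃ φ : MulAut G, φ y = b := by
      intro b hb
      have hcardQ' : Nat.card (zpowers b) = q := by rw [Nat.card_zpowers, hb]
      let Q1 : Sylow q G := Sylow.ofCard (zpowers y) (by rw [hcardQ, hfacq, pow_one])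
      let Q2 : Sylow q G := Sylow.ofCard (zpowers b) (by rw [hcardQ', hfacq, pow_one])
      obtain ⟨g, hg⟩ := MulAction.exists_smul_eq G Q2 Q1
      have hgb : g * b * g⁻¹ ∈ zpowers y := by
        have h1 : g * b * g⁻¹ ∈ ((g • Q2 : Sylow q G) : Subgroup G) := by
          rw [Sylow.coe_subgroup_smul]
          exact Subgroup.smul_mem_pointwise_smul b (MulAut.conj g) _ (mem_zpowers b)
        rw [hg] at h1
        exact h1
      rw [← mem_powers_iff_mem_zpowers] at hgb
      obtain ⟨k, hk⟩ := hgb
      have hk' : y ^ k = g * b * g⁻¹ := hk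
      have hkq : ¬ q ∣ k := by
        rintro ⟨c, rfl⟩
        rw [pow_mul, ← hy, pow_orderOf_eq_one, one_pow] at hk'
        have : b = 1 := by
          have := congrArg (fun z => g⁻¹ * z * g) hk'
          simpa [mul_assoc] using this.symm
        rw [this, orderOf_one] at hb
        exact hqp.one_lt.ne hb
      obtain ⟨T, hT⟩ := h2 k hkq
      obtain ⟨ψ, hψ1, hψ2⟩ := extend_aut (P : Subgroup G) y hcompl k
        (by rw [hy]; exact (Nat.Prime.coprime_iff_not_dvd hqp).mpr hkq) T (by
        intro x
        have := hT x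
        rw [conj_iter] at this
        exact this)
      refine ⟨ψ.trans (MulAut.conj g⁻¹), ?_⟩
      show g⁻¹ * ψ y * (g⁻¹)⁻¹ = b
      rw [hψ1, hk']; group
    intro a b ha hb
    obtain ⟨φ1, h1⟩ := key a ha
    obtain ⟨φ2, h2⟩ := key b hb
    refine ⟨φ1.symm.trans φ2, ?_⟩
    show φ2 (φ1.symm a) = b
    rw [← h1, MulEquiv.symm_apply_apply, h2]

end bwd

end CfsgLib.H7Aut3
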