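import Cfsg.Agent.EqBase
import Mathlib
import Cfsg.Agent.LibCoprime2
import Cfsg.Agent.LibH6PSplit
import Cfsg.Agent.LibH7Sylow

set_option autoImplicit false

/-!
Cyclic Sylow `p`-subgroups: coprime action on a cyclic `p`-group, Burnside's transfer theorem.
-/

namespace CfsgLib.H7Cyc

open Subgroup
open scoped commutatorElement

theorem mem_zpowers_of_prime {P : Type*} [Group P] [Finite P] [IsCyclic P] {p : ℕ} (hp : p.Prime) {x y : P}
    (hx : orderOf x = p) (hy : orderOf y = p) : y ∈ zpowers x := by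
  classical
  letI : Fintype P := Fintype.ofFinite P
  have h1 : (zpowers x : Set P) ⊆ ((Finset.univ.filter fun a : P => a ^ p = 1 : Finset P) : Set P) := by
    intro a ha
    rw [Finset.coe_filter]
    refine ⟨Finset.mem_univ _, ?_⟩
    obtain ⟨k, rfl⟩ := ha
    change (x ^ k) ^ p = 1
    rw [← zpow_natCast, ← zpow_mul, mul_comm, zpow_mul, zpow_natCast, ← hx, pow_orderOf_eq_one, one_zpow]
  have h2 : (zpowers x : Set P).ncard = p := by
    rw [← Nat.card_coe_set_eq]
    change Nat.card (zpowers x) = p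
    rw [Nat.card_zpowers, hx]
  have h3 : ((Finset.univ.filter fun a : P => a ^ p = 1 : Finset P) : Set P).ncard ≤ (zpowers x : Set P).ncard := by
    rw [Set.ncard_coe_finset, h2]
    exact IsCyclic.card_pow_eq_one_le hp.pos
  have h4 := Set.eq_of_subset_of_ncard_le h1 h3 (Set.toFinite _)
  have h5 : y ∈ (zpowers x : Set P) := by
    rw [h4, Finset.coe_filter]
    refine ⟨Finset.mem_univ _, ?_⟩
    rw [← hy]; exact pow_orderOf_eq_one y
  exact h5

variable {G : Type*} [Group G] [Finite G]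

theorem mem_zpowers_of_prime' {P : Subgroup G} (hc : IsCyclic P) {p : ℕ} (hp : p.Prime) {x y : G}
    (hxP : x ∈ P) (hyP : y ∈ P) (hx : orderOf x = p) (hy : orderOf y = p) : y ∈ zpowers x := by
  have h1 : (⟨y, hyP⟩ : P) ∈ zpowers (⟨x, hxP⟩ : P) :=
    mem_zpowers_of_prime hp (by rw [Subgroup.orderOf_mk]; exact hx) (by rw [Subgroup.orderOf_mk]; exact hy)
  obtain ⟨k, hk⟩ := h1
  exact ⟨k, congrArg Subtype.val hk⟩

theorem exists_order_p {p : ℕ} [hp : Fact p.Prime] {X : Subgroup G} (hX : IsPGroup p X) (hne : X ≠ ⊥) :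
    ∃ x ∈ X, orderOf x = p := by
  have h1 : p ∣ Nat.card X := by
    obtain ⟨n, hn⟩ := IsPGroup.iff_card.1 hX
    rw [hn]
    refine dvd_pow_self p ?_
    rintro rfl
    apply hne
    rw [← Subgroup.card_eq_one, hn, pow_zero]
  obtain ⟨x, hx⟩ := exists_prime_orderOf_dvd_card' p h1
  exact ⟨x, x.2, by rw [Subgroup.orderOf_coe]; exact hx⟩

/-- Nontrivial subgroups of a cyclic `p`-group meet nontrivially. -/
theorem inf_ne_bot {p : ℕ} [hp : Fact p.Prime] {P X Y : Subgroup G} (hP : IsPGroup p P) (hc : IsCyclic P)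
    (hX : X ≤ P) (hY : Y ≤ P) (hX1 : X ≠ ⊥) (hY1 : Y ≠ ⊥) : X ⊓ Y ≠ ⊥ := by
  obtain ⟨x, hx, hxo⟩ := exists_order_p (hP.to_le hX) hX1
  obtain ⟨y, hy, hyo⟩ := exists_order_p (hP.to_le hY) hY1
  intro h
  have h1 : y ∈ zpowers x := mem_zpowers_of_prime' hc hp.out (hX hx) (hY hy) hxo hyo
  have h2 : zpowers x ≤ X := by rwa [zpowers_le]
  have h3 : y ∈ X ⊓ Y := ⟨h2 h1, hy⟩
  rw [h, mem_bot] at h3
  rw [h3, orderOf_one] at hyo
  exact hp.out.one_lt.ne hyo

/-- A coprime action on a cyclic `p`-group is trivial or fixed point free. -/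
theorem act_cyclic {p : ℕ} [hp : Fact p.Prime] {P A : Subgroup G} (hP : IsPGroup p P) (hc : IsCyclic P)
    (hA : A ≤ normalizer (P : Set G)) (hcop : (Nat.card A).Coprime p) :
    A ≤ centralizer (P : Set G) ∨ (P ⊓ centralizer (A : Set G) = ⊥ ∧ ⁅P, A⁆ = P) := by
  haveI : IsMulCommutative P := ⟨⟨fun a b => by
    haveI := hc
    exact (IsCyclic.commutative (α := P)).is_comm.comm a b⟩⟩
  have hPs : Group.IsSolvable P := by
    haveI := hP.isNilpotent
    infer_instance
  have hcop' : (Nat.card A).Coprime (Nat.card P) := by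
    obtain ⟨n, hn⟩ := IsPGroup.iff_card.1 hP
    rw [hn]; exact hcop.pow_right n
  have h1 := CfsgLib.Coprime2.commutator_inf_centralizer hA hcop'
  have h2 := CfsgLib.Coprime.commutator_sup_centralizer hA hcop' (Or.inr hPs)
  have h3 : ⁅P, A⁆ ≤ P := CfsgLib.Coprime.commutator_le_of_le_normalizer hA
  by_cases hC : P ⊓ centralizer (A : Set G) = ⊥
  · right
    refine ⟨hC, ?_⟩
    rwa [hC, sup_bot_eq] at h2
  · left
    have h4 : ⁅P, A⁆ = ⊥ := by
      by_contra hne
      refine inf_ne_bot hP hc h3 inf_le_left hne hC ?_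
      rw [← inf_assoc, inf_eq_left.2 h3, h1]
    rw [Subgroup.commutator_eq_bot_iff_le_centralizer, Subgroup.le_centralizer_iff] at h4
    exact h4

theorem le_centralizer_of_cyclic {P : Subgroup G} (hc : IsCyclic P) : P ≤ centralizer (P : Set G) := by
  intro x hx
  rw [mem_centralizer_iff]
  intro y hy
  haveI := hc
  exact congrArg Subtype.val ((IsCyclic.commutative (α := P)).is_comm.comm ⟨y, hy⟩ ⟨x, hx⟩)

/-- **Burnside**, for cyclic Sylow subgroups. -/
theorem burnside {p : ℕ} [hp : Fact p.Prime] (P : Sylow p G) (hc : IsCyclic P)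
    (h : ∀ g ∈ normalizer ((P : Subgroup G) : Set G), (orderOf g).Coprime p →
      g ∈ centralizer ((P : Subgroup G) : Set G)) :
    ∃ N : Subgroup G, N.Normal ∧ N.index = Nat.card P := by
  apply CfsgLib.H7.exists_normal_index_of_normalizer_le P
  intro g hg
  obtain ⟨e, f, hef, ⟨k, hk⟩, hf⟩ := CfsgLib.H6.exists_p_decomp p hp.out g
  have h1 : g ^ e ∈ (P : Subgroup G) := by
    have h2 : IsPGroup p (zpowers (g ^ e)) := by
      rw [IsPGroup.iff_card]
      exact ⟨k, by rw [Nat.card_zpowers, hk]⟩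
    have h3 := h2.inf_normalizer_sylow P
    have h4 : g ^ e ∈ zpowers (g ^ e) ⊓ normalizer ((P : Subgroup G) : Set G) :=
      ⟨mem_zpowers _, pow_mem hg e⟩
    exact (h3.le h4).2
  rw [← hef]
  exact mul_mem (le_centralizer_of_cyclic hc h1) (h _ (pow_mem hg f) hf)

theorem zpowers_coprime {p : ℕ} {g : G} (h : (orderOf g).Coprime p) : (Nat.card (zpowers g)).Coprime p := by
  rwa [Nat.card_zpowers]

/-- A perfect group with a cyclic Sylow `p`-subgroup has no central element of order `p`. -/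
theorem no_central {p : ℕ} [hp : Fact p.Prime] (P : Sylow p G) (hc : IsCyclic P) (hperf : Group.IsPerfect G)
    {z : G} (hz : z ∈ center G) (hzo : orderOf z = p) : False := by
  have hzP : z ∈ (P : Subgroup G) := by
    have h2 : IsPGroup p (zpowers z) := by
      rw [IsPGroup.iff_card]
      exact ⟨1, by rw [Nat.card_zpowers, hzo, pow_one]⟩
    have h3 := h2.inf_normalizer_sylow P
    have h4 : z ∈ zpowers z ⊓ normalizer ((P : Subgroup G) : Set G) :=
      ⟨mem_zpowers _, Subgroup.center_le_normalizer _ hz⟩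
    exact (h3.le h4).2
  have hz1 : z ≠ 1 := by
    rintro rfl
    rw [orderOf_one] at hzo
    exact hp.out.one_lt.ne hzo
  obtain ⟨N, hN, hidx⟩ := burnside P hc (by
    intro g hg hgo
    rcases act_cyclic P.isPGroup' hc (by rwa [zpowers_le]) (zpowers_coprime hgo) with h | h
    · exact h (mem_zpowers g)
    · exfalso
      have h1 : z ∈ (P : Subgroup G) ⊓ centralizer (zpowers g : Set G) :=
        ⟨hzP, Subgroup.center_le_centralizer _ hz⟩
      rw [h.1, mem_bot] at h1
      exact hz1 h1)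
  have h1 : IsPGroup p (G ⧸ N) := by
    obtain ⟨k, hk⟩ := IsPGroup.iff_card.1 P.isPGroup'
    exact IsPGroup.of_card (n := k) (by rw [← Subgroup.index_eq_card, hidx, hk])
  have h2 : Group.IsSolvable (G ⧸ N) := by
    haveI := h1.isNilpotent
    infer_instance
  have h3 : Nontrivial (G ⧸ N) := by
    rw [← Finite.one_lt_card_iff_nontrivial, ← Subgroup.index_eq_card, hidx, Finite.one_lt_card_iff_nontrivial]
    exact ⟨⟨z, hzP⟩, 1, fun h => hz1 (congrArg Subtype.val h)⟩
  have h4 : Group.IsPerfect (G ⧸ N) := Group.IsPerfect.ofSurjective (f := QuotientGroup.mk' N) (QuotientGroup.mk'_surjective N)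
  have h5 := Group.IsSolvable.commutator_lt_top_of_nontrivial (G ⧸ N)
  exact h5.ne h4.commutator_eq_top

/-- If `G = L P` with `L` normal, `P` cyclic Sylow, not inside `L`, then `G` has a normal `p`-complement. -/
theorem burnside_sup {p : ℕ} [hp : Fact p.Prime] (P : Sylow p G) (hc : IsCyclic P) (L : Subgroup G) [L.Normal]
    (hLP : L ⊔ P = ⊤) (hPL : ¬ (P : Subgroup G) ≤ L) : ∃ N : Subgroup G, N.Normal ∧ N.index = Nat.card P := by
  have hq : IsPGroup p (G ⧸ L) := by
    refine P.isPGroup'.of_surjective ((QuotientGroup.mk' L).comp (P : Subgroup G).subtype) ?_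
    rw [← MonoidHom.range_eq_top, MonoidHom.range_comp, Subgroup.range_subtype]
    have h1 : ((L ⊔ P : Subgroup G)).map (QuotientGroup.mk' L) = ⊤ := by
      rw [hLP, ← MonoidHom.range_eq_map, MonoidHom.range_eq_top]
      exact QuotientGroup.mk'_surjective L
    rw [Subgroup.map_sup, (Subgroup.map_eq_bot_iff _).2 (by rw [QuotientGroup.ker_mk']), bot_sup_eq] at h1
    exact h1
  apply burnside P hc
  intro g hg hgo
  have hgL : g ∈ L := by
    rw [← QuotientGroup.eq_one_iff]
    obtain ⟨k, hk⟩ := hq (QuotientGroup.mk g)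
    have h1 : orderOf (QuotientGroup.mk g : G ⧸ L) ∣ p ^ k := orderOf_dvd_of_pow_eq_one hk
    have h2 : orderOf (QuotientGroup.mk g : G ⧸ L) ∣ orderOf g := orderOf_map_dvd (QuotientGroup.mk' L) g
    exact orderOf_eq_one_iff.1 (Nat.eq_one_of_dvd_coprimes (hgo.pow_right k) h2 h1)
  rcases act_cyclic P.isPGroup' hc (by rwa [zpowers_le]) (zpowers_coprime hgo) with h | h
  · exact h (mem_zpowers g)
  · exfalso
    apply hPL
    rw [← h.2, Subgroup.commutator_le]
    intro x _ y hy
    have h1 : y ∈ L := (zpowers_le.2 hgL) hy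
    have hLn : L.Normal := inferInstance
    have e : ⁅x, y⁆ = (x * y * x⁻¹) * y⁻¹ := rfl
    rw [e]
    exact L.mul_mem (hLn.conj_mem y h1 x) (L.inv_mem h1)

end CfsgLib.H7Cyc
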