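import Mathlib

/-! Derived length of `p`-groups acting linearly: invariant submodules, Maschke, Schur, reduction. -/

set_option autoImplicit false
set_option linter.unusedSectionVars false

namespace CfsgLib.H7Der

open Subgroup
open scoped commutatorElement

variable {Γ : Type*} [Group Γ] [Finite Γ] {K : Type*} [Field K] {V : Type*} [AddCommGroup V] [Module K V]
  [FiniteDimensional K V] (ρ : Γ →* Module.End K V)

/-- `W` is invariant under `X` -/
def Inv (X : Subgroup Γ) (W : Submodule K V) : Prop := ∀ x ∈ X, ∀ w ∈ W, ρ x w ∈ W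

/-- `W` is an irreducible `X`-submodule -/
def Irr (X : Subgroup Γ) (W : Submodule K V) : Prop :=
  Inv ρ X W ∧ W ≠ ⊥ ∧ ∀ U ≤ W, Inv ρ X U → U ≠ ⊥ → U = W

theorem comm_le (X : Subgroup Γ) : ⁅X, X⁆ ≤ X := by
  rw [Subgroup.commutator_le]
  intro a ha b hb
  rw [commutatorElement_def]
  exact X.mul_mem (X.mul_mem (X.mul_mem ha hb) (X.inv_mem ha)) (X.inv_mem hb)

theorem exists_irr (X : Subgroup Γ) : ∀ n : ℕ, ∀ W : Submodule K V, Module.finrank K W = n → Inv ρ X W → W ≠ ⊥ →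
    ∃ U ≤ W, Irr ρ X U := by
  intro n
  induction n using Nat.strong_induction_on with
  | _ n ih =>
  intro W hn hW h0
  by_cases h : Irr ρ X W
  · exact ⟨W, le_rfl, h⟩
  · unfold Irr at h
    push Not at h
    obtain ⟨U, hUW, hU, hU0, hne⟩ := h hW h0
    have hlt : Module.finrank K U < n := by
      rw [← hn]
      exact Submodule.finrank_lt_finrank_of_lt (lt_of_le_of_ne hUW hne)
    obtain ⟨U', hU', hI⟩ := ih _ hlt U rfl hU hU0
    exact ⟨U', hU'.trans hUW, hI⟩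

theorem rho_inv (x : Γ) (v : V) : ρ x⁻¹ (ρ x v) = v := by
  rw [← Module.End.mul_apply, ← map_mul, inv_mul_cancel, map_one]; rfl

theorem rho_inv' (x : Γ) (v : V) : ρ x (ρ x⁻¹ v) = v := by
  rw [← Module.End.mul_apply, ← map_mul, mul_inv_cancel, map_one]; rfl

theorem rho_mul (x y : Γ) (v : V) : ρ (x * y) v = ρ x (ρ y v) := by
  rw [map_mul, Module.End.mul_apply]

/-- Maschke -/
theorem exists_compl (X : Subgroup Γ) (hX : (Nat.card X : K) ≠ 0) {W T : Submodule K V} (hW : Inv ρ X W)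
    (hT : Inv ρ X T) (hTW : T ≤ W) (hne : T ≠ W) :
    ∃ T' ≤ W, Inv ρ X T' ∧ T' ≠ ⊥ ∧ T ⊓ T' = ⊥ := by
  classical
  letI : Fintype X := Fintype.ofFinite _
  obtain ⟨C, hC⟩ := Submodule.exists_isCompl T
  set π : V →ₗ[K] V := T.subtype ∘ₗ Submodule.linearProjOfIsCompl T C hC with hπ
  have h1 : ∀ v, π v ∈ T := fun v => (Submodule.linearProjOfIsCompl T C hC v).2
  have h2 : ∀ t ∈ T, π t = t := by
    intro t ht
    have := Submodule.linearProjOfIsCompl_apply_left hC ⟨t, ht⟩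
    exact congrArg Subtype.val this
  set A : V →ₗ[K] V := (Nat.card X : K)⁻¹ • ∑ x : X, (ρ (x : Γ)) ∘ₗ π ∘ₗ (ρ ((x : Γ)⁻¹)) with hA
  have hAv : ∀ v, A v = (Nat.card X : K)⁻¹ • ∑ x : X, ρ (x : Γ) (π (ρ ((x : Γ)⁻¹) v)) := by
    intro v
    rw [hA, LinearMap.smul_apply, LinearMap.sum_apply]
    rfl
  have h3 : ∀ v, A v ∈ T := by
    intro v
    rw [hAv]
    exact T.smul_mem _ (T.sum_mem (fun x _ => hT x x.2 _ (h1 _)))
  have h4 : ∀ t ∈ T, A t = t := by
    intro t ht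
    rw [hAv]
    have : ∀ x : X, ρ (x : Γ) (π (ρ ((x : Γ)⁻¹) t)) = t := by
      intro x
      rw [h2 _ (hT _ (X.inv_mem x.2) t ht), rho_inv']
    rw [Finset.sum_congr rfl (fun x _ => this x), Finset.sum_const, Finset.card_univ, ← Nat.card_eq_fintype_card,
      ← Nat.cast_smul_eq_nsmul K, smul_smul, inv_mul_cancel₀ hX, one_smul]
  have h5 : ∀ y ∈ X, ∀ v, A (ρ y v) = ρ y (A v) := by
    intro y hy v
    rw [hAv, hAv, map_smul, map_sum]
    congr 1
    refine Fintype.sum_equiv (Equiv.mulLeft (⟨y⁻¹, X.inv_mem hy⟩ : X)) _ _ ?_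
    intro x
    change ρ (x : Γ) (π (ρ ((x : Γ)⁻¹) (ρ y v))) = ρ y (ρ (y⁻¹ * (x : Γ)) (π (ρ ((y⁻¹ * (x : Γ))⁻¹) v)))
    rw [← rho_mul, ← rho_mul]
    have e1 : y * (y⁻¹ * (x : Γ)) = x := by group
    have e2 : (y⁻¹ * (x : Γ))⁻¹ = (x : Γ)⁻¹ * y := by group
    rw [e1, e2]
  refine ⟨W ⊓ LinearMap.ker A, inf_le_left, ?_, ?_, ?_⟩
  · intro x hx w hw
    refine ⟨hW x hx w hw.1, ?_⟩
    rw [SetLike.mem_coe, LinearMap.mem_ker, h5 x hx, LinearMap.mem_ker.1 hw.2, map_zero]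
  · intro h0
    apply hne
    refine le_antisymm hTW ?_
    intro w hw
    have : w - A w ∈ W ⊓ LinearMap.ker A := by
      refine ⟨W.sub_mem hw (hTW (h3 w)), ?_⟩
      rw [SetLike.mem_coe, LinearMap.mem_ker, map_sub, h4 _ (h3 w), sub_self]
    rw [h0, Submodule.mem_bot, sub_eq_zero] at this
    rw [this]; exact h3 w
  · rw [eq_bot_iff]
    rintro t ⟨ht, -, ht'⟩
    rw [Submodule.mem_bot, ← h4 t ht]
    exact ht'

/-- Schur -/
theorem schur [IsAlgClosed K] {X : Subgroup Γ} {U : Submodule K V} (hU : Irr ρ X U) (f : Module.End K V)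
    (hf : ∀ u ∈ U, f u ∈ U) (hc : ∀ x ∈ X, ∀ u ∈ U, f (ρ x u) = ρ x (f u)) : ∃ c : K, ∀ u ∈ U, f u = c • u := by
  haveI : Nontrivial U := (Submodule.nontrivial_iff_ne_bot).2 hU.2.1
  obtain ⟨c, hc'⟩ := Module.End.exists_eigenvalue (f.restrict hf)
  refine ⟨c, ?_⟩
  obtain ⟨u0, hu0⟩ := hc'.exists_hasEigenvector
  have h1 : f.restrict hf u0 = c • u0 := hu0.apply_eq_smul
  have h2 : f u0 = c • (u0 : V) := congrArg Subtype.val h1
  set E : Submodule K V := U ⊓ LinearMap.ker (f - c • LinearMap.id) with hE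
  have hmem : ∀ u, u ∈ E ↔ u ∈ U ∧ f u = c • u := by
    intro u
    rw [hE, Submodule.mem_inf, LinearMap.mem_ker, LinearMap.sub_apply, LinearMap.smul_apply, LinearMap.id_apply,
      sub_eq_zero]
  have h3 : E = U := by
    apply hU.2.2 E inf_le_left
    · intro x hx u hu
      rw [hmem] at hu ⊢
      exact ⟨hU.1 x hx u hu.1, by rw [hc x hx u hu.1, hu.2, map_smul]⟩
    · intro h0
      have : (u0 : V) ∈ E := (hmem _).2 ⟨u0.2, h2⟩
      rw [h0, Submodule.mem_bot] at this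
      exact hu0.2 (Subtype.ext this)
  intro u hu
  rw [← h3, hmem] at hu
  exact hu.2

theorem exists_eig [IsAlgClosed K] {U : Submodule K V} (hU : U ≠ ⊥) (f : Module.End K V)
    (hf : ∀ u ∈ U, f u ∈ U) : ∃ c : K, ∃ u ∈ U, u ≠ 0 ∧ f u = c • u := by
  haveI : Nontrivial U := (Submodule.nontrivial_iff_ne_bot).2 hU
  obtain ⟨c, hc'⟩ := Module.End.exists_eigenvalue (f.restrict hf)
  obtain ⟨u0, hu0⟩ := hc'.exists_hasEigenvector
  have h1 : f.restrict hf u0 = c • u0 := hu0.apply_eq_smul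
  exact ⟨c, u0, u0.2, fun h => hu0.2 (Subtype.ext h), congrArg Subtype.val h1⟩

/-- elements of `X` acting as scalars on `U` -/
def scal (X : Subgroup Γ) (U : Submodule K V) : Subgroup Γ where
  carrier := {x | x ∈ X ∧ ∃ c : K, ∀ u ∈ U, ρ x u = c • u}
  one_mem' := ⟨X.one_mem, 1, fun u _ => by rw [map_one, one_smul]; rfl⟩
  mul_mem' := by
    rintro x y ⟨hx, c, hc⟩ ⟨hy, d, hd⟩
    refine ⟨X.mul_mem hx hy, c * d, fun u hu => ?_⟩
    rw [rho_mul, hd u hu, map_smul, hc u hu, smul_smul, mul_comm]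
  inv_mem' := by
    rintro x ⟨hx, c, hc⟩
    refine ⟨X.inv_mem hx, c⁻¹, fun u hu => ?_⟩
    by_cases hc0 : c = 0
    · have h1 := hc u hu
      rw [hc0, zero_smul] at h1
      have h2 : u = 0 := by
        have := rho_inv ρ x u
        rw [h1, map_zero] at this
        exact this.symm
      rw [h2, map_zero, smul_zero]
    · have h1 := rho_inv ρ x u
      rw [hc u hu, map_smul] at h1
      have h2 : c⁻¹ • (c • ρ x⁻¹ u) = c⁻¹ • u := by rw [h1]
      rwa [smul_smul, inv_mul_cancel₀ hc0, one_smul] at h2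

theorem mem_scal {X : Subgroup Γ} {U : Submodule K V} {x : Γ} :
    x ∈ scal ρ X U ↔ x ∈ X ∧ ∃ c : K, ∀ u ∈ U, ρ x u = c • u := Iff.rfl

/-- elements of `X` commuting with `a` on `U` -/
def cent (X : Subgroup Γ) (U : Submodule K V) (hU : Inv ρ X U) (a : Γ) : Subgroup Γ where
  carrier := {x | x ∈ X ∧ ∀ u ∈ U, ρ x (ρ a u) = ρ a (ρ x u)}
  one_mem' := ⟨X.one_mem, fun u _ => by rw [map_one]; rfl⟩
  mul_mem' := by
    rintro x y ⟨hx, hx'⟩ ⟨hy, hy'⟩
    refine ⟨X.mul_mem hx hy, fun u hu => ?_⟩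
    rw [rho_mul, hy' u hu, hx' _ (hU y hy u hu), rho_mul]
  inv_mem' := by
    rintro x ⟨hx, hx'⟩
    refine ⟨X.inv_mem hx, fun u hu => ?_⟩
    have h1 := hx' _ (hU _ (X.inv_mem hx) u hu)
    rw [rho_inv'] at h1
    rw [← h1, rho_inv]

/-- the key step: an irreducible module with non-abelian image becomes reducible on a subgroup containing `X'` -/
theorem step [IsAlgClosed K] {X : Subgroup Γ} (hX : Group.IsNilpotent X) {U : Submodule K V} (hU : Irr ρ X U)
    (hna : ¬ ∀ x ∈ ⁅X, X⁆, ∀ u ∈ U, ρ x u = u) :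
    ∃ N ≤ X, ⁅X, X⁆ ≤ N ∧ ∃ U' ≤ U, Inv ρ N U' ∧ U' ≠ ⊥ ∧ U' ≠ U := by
  classical
  have hcomm : ⁅X, X⁆ ≤ X := comm_le X
  set Z := scal ρ X U with hZ
  have hXZ : ¬ X ≤ Z := by
    intro hle
    apply hna
    have : ⁅X, X⁆ ≤ (cent ρ X U hU.1 1) ⊓ (cent ρ X U hU.1 1) := by
      rw [Subgroup.commutator_le]
      intro x hx y hy
      have : ⁅x, y⁆ ∈ X := hcomm (Subgroup.commutator_mem_commutator hx hy)
      exact ⟨⟨this, fun u hu => by rw [map_one]; rfl⟩, ⟨this, fun u hu => by rw [map_one]; rfl⟩⟩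
    -- direct: the set of elements acting trivially
    let T : Subgroup Γ :=
      { carrier := {x | ∀ u ∈ U, ρ x u = u}
        one_mem' := fun u _ => by rw [map_one]; rfl
        mul_mem' := by
          intro x y hx hy u hu
          rw [rho_mul, hy u hu, hx u hu]
        inv_mem' := by
          intro x hx u hu
          have := rho_inv ρ x u
          rwa [hx u hu] at this }
    have hT : ⁅X, X⁆ ≤ T := by
      rw [Subgroup.commutator_le]
      intro x hx y hy u hu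
      obtain ⟨-, c, hc⟩ := hle hx
      obtain ⟨-, d, hd⟩ := hle hy
      have h1 : ρ x (ρ y u) = ρ y (ρ x u) := by
        rw [hd u hu, hc u hu, map_smul, map_smul, hc u hu, hd u hu, smul_comm]
      have h2 : ∀ w ∈ U, ρ x (ρ y w) = ρ y (ρ x w) := by
        intro w hw
        rw [hd w hw, hc w hw, map_smul, map_smul, hc w hw, hd w hw, smul_comm]
      rw [commutatorElement_def, rho_mul, rho_mul, rho_mul]
      rw [h2 _ (hU.1 _ (X.inv_mem hx) _ (hU.1 _ (X.inv_mem hy) _ hu)), rho_inv', rho_inv']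
    exact fun x hx => hT hx
  obtain ⟨n, hn⟩ := (Subgroup.isNilpotent_iff_lowerCentralSeries X).1 hX
  have hex : ∃ n, X.lowerCentralSeries n ≤ Z := ⟨n, by rw [hn]; exact bot_le⟩
  obtain ⟨m, hm⟩ : ∃ m, m = Nat.find hex := ⟨_, rfl⟩
  have hm1 : X.lowerCentralSeries m ≤ Z := by rw [hm]; exact Nat.find_spec hex
  have hm0 : m ≠ 0 := by
    rintro rfl
    exact hXZ hm1
  obtain ⟨k, rfl⟩ := Nat.exists_eq_succ_of_ne_zero hm0
  have hk : ¬ X.lowerCentralSeries k ≤ Z := Nat.find_min hex (by rw [← hm]; exact Nat.lt_succ_self k)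
  obtain ⟨a, ha, haZ⟩ := SetLike.not_le_iff_exists.1 hk
  have haX : a ∈ X := by
    have := X.lowerCentralSeries_antitone (Nat.zero_le k)
    exact this ha
  have hcom : ∀ x ∈ X, ⁅a, x⁆ ∈ Z := by
    intro x hx
    apply hm1
    rw [Subgroup.lowerCentralSeries_succ]
    exact Subgroup.commutator_mem_commutator ha hx
  -- scalar relation
  have hR : ∀ x ∈ X, ∃ c : K, c ≠ 0 ∧ ∀ u ∈ U, ρ x (ρ a u) = c • ρ a (ρ x u) := by
    intro x hx
    obtain ⟨-, c, hc⟩ := Z.inv_mem (hcom x hx)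
    refine ⟨c, ?_, ?_⟩
    · rintro rfl
      obtain ⟨u, hu, hu0⟩ := (Submodule.ne_bot_iff _).1 hU.2.1
      have h1 := hc u hu
      rw [zero_smul] at h1
      have h2 := rho_inv ρ (⁅a, x⁆)⁻¹ u
      rw [h1, map_zero] at h2
      exact hu0 h2.symm
    · intro u hu
      rw [← rho_mul, ← rho_mul ρ a x]
      have h1 : x * a = (⁅a, x⁆)⁻¹ * (a * x) := by rw [commutatorElement_def]; group
      rw [h1, rho_mul, hc]
      exact hU.1 _ (X.mul_mem haX hx) u hu
  refine ⟨cent ρ X U hU.1 a, fun x hx => hx.1, ?_, ?_⟩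
  · rw [Subgroup.commutator_le]
    intro x hx y hy
    refine ⟨hcomm (Subgroup.commutator_mem_commutator hx hy), fun u hu => ?_⟩
    obtain ⟨c, hc0, hc⟩ := hR x hx
    obtain ⟨d, hd0, hd⟩ := hR y hy
    obtain ⟨c', hc0', hc'⟩ := hR _ (X.inv_mem hx)
    obtain ⟨d', hd0', hd'⟩ := hR _ (X.inv_mem hy)
    have hcc : ∀ w ∈ U, (c * c') • w = w := by
      intro w hw
      have h1 := hc' _ (hU.1 _ (X.inv_mem haX) w hw)
      rw [rho_inv'] at h1
      -- ρ x⁻¹ w = c' • ρ a (ρ x⁻¹ (ρ a⁻¹ w))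
      have h2 := hc _ (hU.1 _ (X.inv_mem hx) _ (hU.1 _ (X.inv_mem haX) w hw))
      rw [rho_inv', rho_inv'] at h2
      have h3 : ρ x (ρ x⁻¹ w) = c' • ρ x (ρ a (ρ x⁻¹ (ρ a⁻¹ w))) := by rw [h1, map_smul]
      rw [rho_inv', h2, smul_smul] at h3
      rw [mul_comm]; exact h3.symm
    have hdd : ∀ w ∈ U, (d * d') • w = w := by
      intro w hw
      have h1 := hd' _ (hU.1 _ (X.inv_mem haX) w hw)
      rw [rho_inv'] at h1
      have h2 := hd _ (hU.1 _ (X.inv_mem hy) _ (hU.1 _ (X.inv_mem haX) w hw))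
      rw [rho_inv', rho_inv'] at h2
      have h3 : ρ y (ρ y⁻¹ w) = d' • ρ y (ρ a (ρ y⁻¹ (ρ a⁻¹ w))) := by rw [h1, map_smul]
      rw [rho_inv', h2, smul_smul] at h3
      rw [mul_comm]; exact h3.symm
    have hyi := X.inv_mem hy
    have hxi := X.inv_mem hx
    rw [commutatorElement_def]
    have e1 : ρ (x * y * x⁻¹ * y⁻¹) (ρ a u) = ρ x (ρ y (ρ x⁻¹ (ρ y⁻¹ (ρ a u)))) := by
      rw [rho_mul, rho_mul, rho_mul]
    have e2 : ρ (x * y * x⁻¹ * y⁻¹) u = ρ x (ρ y (ρ x⁻¹ (ρ y⁻¹ u))) := by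
      rw [rho_mul, rho_mul, rho_mul]
    rw [e1, e2, hd' u hu, map_smul, hc' _ (hU.1 _ hyi u hu), map_smul, map_smul, map_smul,
      hd _ (hU.1 _ hxi _ (hU.1 _ hyi u hu)), map_smul, map_smul,
      hc _ (hU.1 _ hy _ (hU.1 _ hxi _ (hU.1 _ hyi u hu)))]
    set w := ρ a (ρ x (ρ y (ρ x⁻¹ (ρ y⁻¹ u)))) with hw
    have hwU : w ∈ U := hU.1 _ haX _ (hU.1 _ hx _ (hU.1 _ hy _ (hU.1 _ hxi _ (hU.1 _ hyi u hu))))
    rw [smul_smul, smul_smul, smul_smul]
    have h4 : (d' * c' * d * c) • w = (d * d') • ((c * c') • w) := by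
      rw [smul_smul]; congr 1; ring
    rw [h4, hcc w hwU, hdd w hwU]
  · obtain ⟨c, u0, hu0, hu00, hc⟩ := exists_eig hU.2.1 (ρ a) (hU.1 a haX)
    set E : Submodule K V := U ⊓ LinearMap.ker (ρ a - c • LinearMap.id) with hE
    have hmem : ∀ u, u ∈ E ↔ u ∈ U ∧ ρ a u = c • u := by
      intro u
      rw [hE, Submodule.mem_inf, LinearMap.mem_ker, LinearMap.sub_apply, LinearMap.smul_apply, LinearMap.id_apply,
        sub_eq_zero]
    refine ⟨E, inf_le_left, ?_, ?_, ?_⟩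
    · intro x hx u hu
      rw [hmem] at hu ⊢
      refine ⟨hU.1 x hx.1 u hu.1, ?_⟩
      rw [← hx.2 u hu.1, hu.2, map_smul]
    · intro h0
      have : u0 ∈ E := (hmem _).2 ⟨hu0, hc⟩
      rw [h0, Submodule.mem_bot] at this
      exact hu00 this
    · intro h0
      apply haZ
      refine ⟨haX, c, fun u hu => ?_⟩
      rw [← h0, hmem] at hu
      exact hu.2

/-- inner iterated derived subgroup -/
def DD : ℕ → Subgroup Γ → Subgroup Γ
  | 0, X => X
  | k + 1, X => DD k ⁅X, X⁆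

theorem DD_mono (k : ℕ) : ∀ {X Y : Subgroup Γ}, X ≤ Y → DD k X ≤ DD k Y := by
  induction k with
  | zero => intro X Y h; exact h
  | succ k ih => intro X Y h; exact ih (Subgroup.commutator_mono h h)

theorem DD_le (k : ℕ) : ∀ X : Subgroup Γ, DD k X ≤ X := by
  induction k with
  | zero => intro X; exact le_rfl
  | succ k ih => intro X; exact (ih _).trans (comm_le X)

theorem DD_succ' (k : ℕ) : ∀ X : Subgroup Γ, DD (k + 1) X = ⁅DD k X, DD k X⁆ := by
  induction k with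
  | zero => intro X; rfl
  | succ k ih =>
    intro X
    change DD (k + 1) ⁅X, X⁆ = _
    rw [ih]; rfl

theorem DD_top (k : ℕ) : DD k (⊤ : Subgroup Γ) = derivedSeries Γ k := by
  induction k with
  | zero => rfl
  | succ k ih => rw [DD_succ', ih, derivedSeries_succ]

theorem DD_conj (k : ℕ) : ∀ {X : Subgroup Γ} {g x : Γ}, g ∈ X → x ∈ DD k X → g * x * g⁻¹ ∈ DD k X := by
  intro X g x hg hx
  have key : ∀ k, ∀ Y : Subgroup Γ, (∀ y ∈ Y, g * y * g⁻¹ ∈ Y) → ∀ y ∈ DD k Y, g * y * g⁻¹ ∈ DD k Y := by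
    intro k
    induction k with
    | zero => intro Y hY; exact hY
    | succ k ih =>
      intro Y hY
      apply ih
      intro y hy
      have h1 : ⁅Y, Y⁆ ≤ (⁅Y, Y⁆).comap (MulAut.conj g).toMonoidHom := by
        rw [Subgroup.commutator_le]
        intro a ha b hb
        rw [Subgroup.mem_comap]
        have : (MulAut.conj g).toMonoidHom ⁅a, b⁆ = ⁅g * a * g⁻¹, g * b * g⁻¹⁆ := by
          rw [map_commutatorElement]; rfl
        rw [this]
        exact Subgroup.commutator_mem_commutator (hY a ha) (hY b hb)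
      exact h1 hy
  exact key k X (fun y hy => X.mul_mem (X.mul_mem hg hy) (X.inv_mem hg)) x hx

theorem main [IsAlgClosed K] {p : ℕ} [Fact p.Prime] (hΓ : IsPGroup p Γ) (hpK : (p : K) ≠ 0) (k : ℕ) :
    ∀ (X : Subgroup Γ) (W : Submodule K V), Inv ρ X W → (∀ U ≤ W, Irr ρ X U → Module.finrank K U < 2 ^ k) →
      ∀ x ∈ DD k X, ∀ w ∈ W, ρ x w = w := by
  have hcard : ∀ X : Subgroup Γ, (Nat.card X : K) ≠ 0 := by
    intro X
    obtain ⟨j, hj⟩ := IsPGroup.iff_card.1 (hΓ.to_subgroup X)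
    rw [hj, Nat.cast_pow]
    exact pow_ne_zero _ hpK
  have hnil : ∀ X : Subgroup Γ, Group.IsNilpotent X := fun X => (hΓ.to_subgroup X).isNilpotent
  -- reduce to irreducible
  have hred : ∀ k : ℕ, ∀ (X : Subgroup Γ) (W : Submodule K V), Inv ρ X W →
      (∀ U ≤ W, Irr ρ X U → ∀ x ∈ DD k X, ∀ w ∈ U, ρ x w = w) → ∀ x ∈ DD k X, ∀ w ∈ W, ρ x w = w := by
    intro k X W hW h
    let T : Submodule K V :=
      { carrier := {w | w ∈ W ∧ ∀ x ∈ DD k X, ρ x w = w}
        zero_mem' := ⟨W.zero_mem, fun x _ => map_zero _⟩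
        add_mem' := by
          rintro a b ⟨ha, ha'⟩ ⟨hb, hb'⟩
          exact ⟨W.add_mem ha hb, fun x hx => by rw [map_add, ha' x hx, hb' x hx]⟩
        smul_mem' := by
          rintro c a ⟨ha, ha'⟩
          exact ⟨W.smul_mem c ha, fun x hx => by rw [map_smul, ha' x hx]⟩ }
    have hT : Inv ρ X T := by
      rintro y hy w ⟨hw, hw'⟩
      refine ⟨hW y hy w hw, fun x hx => ?_⟩
      have h1 : y⁻¹ * x * y⁻¹⁻¹ ∈ DD k X := DD_conj k (X.inv_mem hy) hx
      have h2 := hw' _ h1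
      rw [inv_inv] at h2
      have h3 : x * y = y * (y⁻¹ * x * y) := by group
      rw [← rho_mul, h3, rho_mul, h2]
    have hTW : T ≤ W := fun w hw => hw.1
    by_contra hcon
    have hne : T ≠ W := by
      intro heq
      apply hcon
      intro x hx w hw
      rw [← heq] at hw
      exact hw.2 x hx
    obtain ⟨T', hT'W, hT', hT'0, hinf⟩ := exists_compl ρ X (hcard X) hW hT hTW hne
    obtain ⟨U, hUT', hU⟩ := exists_irr ρ X _ T' rfl hT' hT'0
    have hUT : U ≤ T := fun u hu => ⟨hT'W (hUT' hu), fun x hx => h U (hUT'.trans hT'W) hU x hx u hu⟩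
    have : U ≤ T ⊓ T' := le_inf hUT hUT'
    rw [hinf, le_bot_iff] at this
    exact hU.2.1 this
  induction k with
  | zero =>
    intro X W hW h
    apply hred 0 X W hW
    intro U hUW hU
    exfalso
    have h1 := h U hUW hU
    rw [pow_zero, Nat.lt_one_iff, Submodule.finrank_eq_zero] at h1
    exact hU.2.1 h1
  | succ k ih =>
    intro X W hW h
    apply hred (k + 1) X W hW
    intro U hUW hU x hx u hu
    by_cases hna : ∀ x ∈ ⁅X, X⁆, ∀ u ∈ U, ρ x u = u
    · exact hna x (DD_le k _ hx) u hu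
    · obtain ⟨N, hNX, hXN, U', hU'U, hU', hU'0, hU'ne⟩ := step ρ (hnil X) hU hna
      have hNn : ∀ x ∈ X, ∀ n ∈ N, x * n * x⁻¹ ∈ N := by
        intro x hx n hn
        have h1 : x * n * x⁻¹ = ⁅x, n⁆ * n := by rw [commutatorElement_def]; group
        rw [h1]
        exact N.mul_mem (hXN (Subgroup.commutator_mem_commutator hx (hNX hn))) hn
      apply ih N U (fun x hx u hu => hU.1 x (hNX hx) u hu) ?_ x (DD_mono k hXN hx) u hu
      intro U₂ hU₂U hU₂
      have hlt : Module.finrank K U < 2 ^ (k + 1) := h U hUW hU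
      have hU₂ne : U₂ ≠ U := by
        rintro rfl
        exact hU'ne (hU₂.2.2 U' hU'U hU' hU'0)
      have hnX : ¬ Inv ρ X U₂ := fun hinv => hU₂ne (hU.2.2 U₂ hU₂U hinv hU₂.2.1)
      unfold Inv at hnX
      push Not at hnX
      obtain ⟨y, hy, v, hv, hyv⟩ := hnX
      set Y : Submodule K V := U₂.map (ρ y) with hY
      have hYU : Y ≤ U := by
        rintro _ ⟨w, hw, rfl⟩
        exact hU.1 y hy w (hU₂U hw)
      have hYN : Inv ρ N Y := by
        rintro n hn _ ⟨w, hw, rfl⟩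
        refine ⟨ρ (y⁻¹ * n * y⁻¹⁻¹) w, hU₂.1 _ (hNn _ (X.inv_mem hy) n hn) w hw, ?_⟩
        rw [← rho_mul, ← rho_mul, inv_inv]
        congr 2
        group
      have hYrank : Module.finrank K Y = Module.finrank K U₂ := by
        apply (LinearEquiv.finrank_eq (Submodule.equivMapOfInjective (ρ y) ?_ U₂)).symm
        intro v w h1
        have h2 := congrArg (ρ y⁻¹) h1
        rwa [rho_inv, rho_inv] at h2
      have hinf : U₂ ⊓ Y = ⊥ := by
        by_contra hne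
        have h1 : U₂ ⊓ Y = U₂ := hU₂.2.2 _ inf_le_left (fun n hn w hw => ⟨hU₂.1 n hn w hw.1, hYN n hn w hw.2⟩) hne
        have h2 : U₂ ≤ Y := inf_eq_left.1 h1
        have h3 : U₂ = Y := Submodule.eq_of_le_of_finrank_eq h2 hYrank.symm
        apply hyv
        rw [h3]
        exact ⟨v, hv, rfl⟩
      have h5 := Submodule.finrank_sup_add_finrank_inf_eq U₂ Y
      rw [hinf, finrank_bot, add_zero, hYrank] at h5
      have h6 : Module.finrank K ↥(U₂ ⊔ Y) ≤ Module.finrank K U := Submodule.finrank_mono (sup_le hU₂U hYU)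
      rw [pow_succ] at hlt
      omega

theorem sum_finrank {ι : Type*} [DecidableEq ι] (E : ι → Submodule K V) (h : iSupIndep E) (s : Finset ι) :
    ∑ j ∈ s, Module.finrank K (E j) = Module.finrank K ↥(⨆ j ∈ s, E j) := by
  induction s using Finset.induction_on with
  | empty =>
    have : (⨆ j ∈ (∅ : Finset ι), E j) = ⊥ := by simp
    rw [this, finrank_bot, Finset.sum_empty]
  | insert a s ha ih =>
    rw [Finset.sum_insert ha, ih, Finset.iSup_insert]
    have h1 : E a ⊓ (⨆ j ∈ s, E j) = ⊥ := (h.disjoint_biSup (y := (s : Set ι)) ha).eq_bot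
    have h2 := Submodule.finrank_sup_add_finrank_inf_eq (E a) (⨆ j ∈ s, E j)
    rw [h1, finrank_bot, add_zero] at h2
    exact h2.symm

end CfsgLib.H7Der
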