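import Cfsg.Statements.S0101
import Cfsg.Agent.LibSolvMisc

set_option autoImplicit false
open Cfsg

namespace Cfsg.Agent.S0101

/-- In a perfect central extension, the kernel meets each Sylow p-subgroup P inside the Frattini subgroup of P. -/
theorem result {H : Type*} {G : Type*} [Group H] [Group G] [Finite H] (σ : H →* G) (hσ : Function.Surjective σ) (hc : σ.ker ≤ Subgroup.center H) (hH : commutator H = ⊤) {p : ℕ} [Fact p.Prime] (P : Sylow p H) : σ.ker ⊓ (P : Subgroup H) ≤ (frattini P).map (P : Subgroup H).subtype := by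
  intro x hx
  obtain ⟨hxk, hxP⟩ := Subgroup.mem_inf.mp hx
  have hxZ := hc hxk
  have key : ∀ (k : ℕ) (g₀ : H), g₀⁻¹ * x ^ k * g₀ ∈ (P : Subgroup H) → g₀⁻¹ * x ^ k * g₀ = x ^ k := by
    intro k g₀ _
    have h1 := Subgroup.mem_center_iff.mp ((Subgroup.center H).pow_mem hxZ k) g₀
    rw [mul_assoc, ← h1, inv_mul_cancel_left]
  let _ : CommGroup ((P : Subgroup H) ⧸ commutator (P : Subgroup H)) :=
    { (inferInstance : Group ((P : Subgroup H) ⧸ commutator (P : Subgroup H))) with
      mul_comm := (Subgroup.Normal.quotient_commutative_iff_commutator_le.mpr le_rfl : IsMulCommutative ((P : Subgroup H) ⧸ commutator (P : Subgroup H))).is_comm.comm }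
  let τ : H →* (P : Subgroup H) ⧸ commutator (P : Subgroup H) := MonoidHom.transfer (QuotientGroup.mk' _)
  have h1 : τ x = 1 := by
    have : x ∈ commutator H := by rw [hH]; trivial
    exact Abelianization.commutator_subset_ker τ this
  have h2 : τ x = (QuotientGroup.mk' _) ⟨x ^ (P : Subgroup H).index, MonoidHom.transfer_eq_pow_aux x key⟩ :=
    MonoidHom.transfer_eq_pow _ x key
  rw [h1] at h2
  have h3 : (⟨x, hxP⟩ : (P : Subgroup H)) ^ (P : Subgroup H).index ∈ commutator (P : Subgroup H) :=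
    (QuotientGroup.eq_one_iff _).mp h2.symm
  have h4 : (⟨x, hxP⟩ : (P : Subgroup H)) ∈ commutator (P : Subgroup H) := by
    have hco : (orderOf (⟨x, hxP⟩ : (P : Subgroup H))).Coprime (P : Subgroup H).index :=
      Nat.Coprime.coprime_dvd_left (orderOf_dvd_natCard _) P.card_coprime_index
    have h5 : (⟨x, hxP⟩ : (P : Subgroup H)) ∈ Subgroup.zpowers (⟨x, hxP⟩ ^ (P : Subgroup H).index) := by
      rw [mem_zpowers_pow_iff]; exact hco.symm
    exact (Subgroup.zpowers_le.mpr h3) h5
  exact ⟨⟨x, hxP⟩, CfsgLib.SolvFrat.commutator_le_frattini (Fact.out : p.Prime) P.isPGroup' h4, rfl⟩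

end Cfsg.Agent.S0101
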