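import Cfsg.Statements.S0575
import Cfsg.Agent.LibH2Misc

set_option autoImplicit false
open Cfsg

namespace Cfsg.Agent.S0575

open Subgroup Cfsg MulAction CfsgLib.Cores CfsgLib.Coprime CfsgLib.H2Misc
open scoped Pointwise commutatorElement



/-- If H is a normal subgroup of a finite group G, then the Frattini subgroup of H, viewed in G, lies in the Frattini subgroup of G. -/
theorem result {G : Type*} [Group G] [Finite G] (H : Subgroup G) [H.Normal] : (frattini ↥H).map H.subtype ≤ frattini G := by
  have key : ∀ M : Subgroup G, IsCoatom M → (frattini ↥H).map H.subtype ≤ M := by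
    intro M hM
    by_contra hcon
    set F := (frattini ↥H).map H.subtype with hF
    haveI hFn : F.Normal := by
      haveI : (frattini ↥H).Characteristic := inferInstance
      rw [hF]
      infer_instance
    have h1 : M ⊔ F = ⊤ := hM.2 _ (lt_of_le_of_ne le_sup_left (fun h => hcon (by rw [h]; exact le_sup_right)))
    have hFH : F ≤ H := map_subtype_le _
    have h2 := dedekind_top (N := F) (H := M) (M := H) hFH (by rw [sup_comm]; exact h1)
    have h3 : M.subgroupOf H ⊔ frattini ↥H = ⊤ := by
      apply map_injective H.subtype_injective
      rw [Subgroup.map_sup, subgroupOf_map_subtype, ← MonoidHom.range_eq_map, range_subtype, ← hF, sup_comm]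
      exact h2.symm
    have h4 := frattini_nongenerating h3
    rw [subgroupOf_eq_top] at h4
    exact hcon (hFH.trans h4)
  exact le_iInf₂ key

end Cfsg.Agent.S0575
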