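import Mathlib
import Cfsg.Agent.LibComp3
import Cfsg.Agent.LibFusionH12
import Cfsg.Agent.S0051
import Cfsg.Agent.S0081
import Cfsg.Agent.S0101
import Cfsg.Agent.S0575
import Cfsg.Agent.S0012

set_option autoImplicit false

/-! Groups with a nonabelian two-generated Sylow `p`-subgroup (S4172). -/

namespace CfsgLib.H7Frat

open Subgroup Cfsg CfsgLib.Comp CfsgLib.Comp2 CfsgLib.Comp3
open scoped commutatorElement

universe u
variable {G : Type u} [Group G]

theorem frattini_equiv {A B : Type u} [Group A] [Group B] (e : A ≃* B) {a : A} :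
    a ∈ frattini A ↔ e a ∈ frattini B := by
  have h1 : e.mapSubgroup (frattini A) = frattini B := (e.mapSubgroup).map_radical
  rw [← h1]
  constructor
  · intro h; exact ⟨a, h, rfl⟩
  · rintro ⟨b, hb, hbe⟩
    rwa [← e.injective hbe]

theorem exists_gen {Q : Type u} [Group Q] [Finite Q] {p : ℕ} [hp : Fact p.Prime]
    (hi : (frattini Q).index = p ^ 2) (A : Subgroup Q) (hA : ¬ A ≤ frattini Q) :
    ∃ b : Q, zpowers b ⊔ A = ⊤ := by
  set B := A ⊔ frattini Q with hB
  have h1 : (frattini Q).relIndex B * B.index = p ^ 2 := by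
    rw [← hi]; exact relIndex_mul_index le_sup_right
  have h2 : B.index ∣ p := by
    have h3 : B.index ∣ p ^ 2 := ⟨(frattini Q).relIndex B, by rw [← h1, mul_comm]⟩
    obtain ⟨k, hk, hk'⟩ := (Nat.dvd_prime_pow hp.out).1 h3
    interval_cases k
    · rw [hk', pow_zero]; exact one_dvd _
    · rw [hk', pow_one]
    · exfalso
      rw [hk'] at h1
      have h4 : (frattini Q).relIndex B = 1 :=
        Nat.eq_of_mul_eq_mul_right (pow_pos hp.out.pos 2) (by rw [h1, one_mul])
      rw [relIndex_eq_one] at h4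
      exact hA (le_sup_left.trans h4)
  by_cases hBt : B = ⊤
  · refine ⟨1, ?_⟩
    rw [frattini_nongenerating hBt, sup_top_eq]
  · obtain ⟨b, hb⟩ : ∃ b, b ∉ B := by
      by_contra h
      push Not at h
      exact hBt (eq_top_iff.2 fun x _ => h x)
    refine ⟨b, ?_⟩
    apply frattini_nongenerating
    rw [sup_assoc, ← hB]
    have h5 : B.relIndex (zpowers b ⊔ B) * (zpowers b ⊔ B).index = B.index :=
      relIndex_mul_index le_sup_right
    have h6 : B.index = p := ((Nat.dvd_prime hp.out).1 h2).resolve_left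
      (fun h => hBt (index_eq_one.1 h))
    have h7 : (zpowers b ⊔ B).index ∣ p := ⟨B.relIndex (zpowers b ⊔ B), by rw [mul_comm, h5, h6]⟩
    rcases (Nat.dvd_prime hp.out).1 h7 with h8 | h8
    · exact index_eq_one.1 h8
    · exfalso
      rw [h6, h8] at h5
      have h9 : B.relIndex (zpowers b ⊔ B) = 1 :=
        Nat.eq_of_mul_eq_mul_right hp.out.pos (by rw [h5, one_mul])
      rw [relIndex_eq_one] at h9
      exact hb (h9 ((le_sup_left : zpowers b ≤ _) (mem_zpowers b)))

theorem commutator_le_of_gen {Q : Type u} [Group Q] (A : Subgroup Q) [A.Normal] {b : Q}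
    (h : zpowers b ⊔ A = ⊤) : commutator Q ≤ A := by
  haveI : IsCyclic (Q ⧸ A) := by
    refine ⟨⟨QuotientGroup.mk' A b, ?_⟩⟩
    intro x
    obtain ⟨x, rfl⟩ := QuotientGroup.mk'_surjective A x
    have h1 : (zpowers b ⊔ A).map (QuotientGroup.mk' A) = ⊤ := by
      rw [h, ← MonoidHom.range_eq_map, MonoidHom.range_eq_top.2 (QuotientGroup.mk'_surjective A)]
    have h2 : A.map (QuotientGroup.mk' A) = ⊥ := by
      rw [Subgroup.map_eq_bot_iff, QuotientGroup.ker_mk']
    rw [Subgroup.map_sup, MonoidHom.map_zpowers, h2, sup_bot_eq] at h1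
    have h3 : QuotientGroup.mk' A x ∈ zpowers (QuotientGroup.mk' A b) := by rw [h1]; trivial
    exact h3
  rw [← Subgroup.Normal.quotient_commutative_iff_commutator_le]
  infer_instance

theorem isPGroup_of_compl [Finite G] {p : ℕ} [Fact p.Prime] (hO : pPrimeCore p G = ⊥) {N : Type u}
    [Group N] (f : N →* G) (hf : Function.Injective f) (hsub : f.range.IsSubnormal)
    (h : HasNormalPComplement p N) : IsPGroup p N := by
  haveI : Finite N := Finite.of_injective f hf
  obtain ⟨Q, M, hM, hMQ⟩ := h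
  have h1 : (Nat.card M).Coprime p := by
    rw [← hMQ.index_eq_card, Nat.coprime_comm, (Fact.out : p.Prime).coprime_iff_not_dvd]
    exact Q.not_dvd_index
  have h2 : (M.map f).IsSubnormal := by
    haveI := hM.map f.rangeRestrict f.rangeRestrict_surjective
    have h3 : ((M.map f.rangeRestrict).map f.range.subtype).IsSubnormal :=
      this.isSubnormal.trans' hsub
    rwa [map_map] at h3
  have h3 : M.map f ≤ pPrimeCore p G := by
    apply le_pPrimeCore_of_subnormal h2
    exact Nat.Coprime.coprime_dvd_left (card_map_dvd _ _) h1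
  rw [hO, le_bot_iff, Subgroup.map_eq_bot_iff_of_injective _ hf] at h3
  have h4 : (Q : Subgroup N) = ⊤ := by
    have := hMQ.sup_eq_top
    rwa [h3, bot_sup_eq] at this
  have h5 : IsPGroup p (⊤ : Subgroup N) := by rw [← h4]; exact Q.isPGroup'
  intro x
  obtain ⟨k, hk⟩ := h5 ⟨x, trivial⟩
  exact ⟨k, congrArg Subtype.val hk⟩

theorem mem_zpowers_of_cyclic {C : Type u} [Group C] [Finite C] [IsCyclic C] {p : ℕ}
    (hp : p.Prime) {y z : C} (hy : y ^ p = 1) (hz : orderOf z = p) : y ∈ zpowers z := by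
  classical
  letI := Fintype.ofFinite C
  have hc := IsCyclic.card_pow_eq_one_le (α := C) (n := p) hp.pos
  have hsub : (Set.toFinite ((zpowers z : Subgroup C) : Set C)).toFinset ⊆
      Finset.univ.filter (fun a : C => a ^ p = 1) := by
    intro x hx
    rw [Set.Finite.mem_toFinset] at hx
    obtain ⟨k, rfl⟩ := mem_zpowers_iff.1 hx
    simp only [Finset.mem_filter, Finset.mem_univ, true_and]
    rw [← zpow_natCast, ← zpow_mul, mul_comm, zpow_mul, zpow_natCast, ← hz, pow_orderOf_eq_one,
      one_zpow]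
  have hcard : (Set.toFinite ((zpowers z : Subgroup C) : Set C)).toFinset.card = p := by
    rw [← Set.ncard_eq_toFinset_card]
    have : ((zpowers z : Subgroup C) : Set C).ncard = Nat.card (zpowers z) := rfl
    rw [this, Nat.card_zpowers, hz]
  have heq := Finset.eq_of_subset_of_card_le hsub (by rw [hcard]; exact hc)
  have : y ∈ (Set.toFinite ((zpowers z : Subgroup C) : Set C)).toFinset := by
    rw [heq]; simpa using hy
  rwa [Set.Finite.mem_toFinset] at this

theorem le_norm_inf {M A B : Subgroup G} (h1 : M ≤ normalizer (A : Set G))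
    (h2 : M ≤ normalizer (B : Set G)) : M ≤ normalizer ((A ⊓ B : Subgroup G) : Set G) := by
  intro m hm
  rw [mem_normalizer_iff]
  intro x
  have e1 := mem_normalizer_iff.1 (h1 hm) x
  have e2 := mem_normalizer_iff.1 (h2 hm) x
  constructor
  · intro hx; exact ⟨e1.1 hx.1, e2.1 hx.2⟩
  · intro hx; exact ⟨e1.2 hx.1, e2.2 hx.2⟩

section
variable [Finite G] {p : ℕ} [Fact p.Prime] (P : Sylow p G)

theorem two_inv (hna : ¬ IsMulCommutative (P : Subgroup G))
    (hgen : (frattini ↥(P : Subgroup G)).index = p ^ 2) {N1 N2 : Subgroup G}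
    (h1 : (P : Subgroup G) ≤ normalizer (N1 : Set G)) (h2 : (P : Subgroup G) ≤ normalizer (N2 : Set G))
    (hN1 : ¬ N1.subgroupOf (P : Subgroup G) ≤ frattini ↥(P : Subgroup G))
    (hN2 : ¬ N2.subgroupOf (P : Subgroup G) ≤ frattini ↥(P : Subgroup G))
    (hd : N1 ⊓ N2 = ⊥) : False := by
  haveI : (N1.subgroupOf (P : Subgroup G)).Normal := normal_subgroupOf_of_le_normalizer h1
  haveI : (N2.subgroupOf (P : Subgroup G)).Normal := normal_subgroupOf_of_le_normalizer h2
  obtain ⟨b1, hb1⟩ := exists_gen hgen _ hN1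
  obtain ⟨b2, hb2⟩ := exists_gen hgen _ hN2
  have h3 := le_inf (commutator_le_of_gen _ hb1) (commutator_le_of_gen _ hb2)
  apply hna
  have h4 : commutator ↥(P : Subgroup G) = ⊥ := by
    rw [eq_bot_iff]
    intro x hx
    have h5 := h3 hx
    have h6 : (x : G) ∈ N1 ⊓ N2 := ⟨mem_subgroupOf.1 h5.1, mem_subgroupOf.1 h5.2⟩
    rw [hd, mem_bot] at h6
    exact mem_bot.2 (Subtype.ext h6)
  rw [_root_.commutator_def, commutator_eq_bot_iff_le_centralizer] at h4
  refine ⟨⟨fun a b => ?_⟩⟩
  exact mem_centralizer_iff.1 (h4 (mem_top b)) a (mem_top a)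

theorem normal_not_le (hcore : pPrimeCore p G = ⊥)
    (hfrat : ((frattini ↥(P : Subgroup G)).map (P : Subgroup G).subtype).normalCore = ⊥)
    (N : Subgroup G) [hN : N.Normal] (hN1 : N ≠ ⊥) :
    ¬ N.subgroupOf (P : Subgroup G) ≤ frattini ↥(P : Subgroup G) := by
  intro h
  have h1 : N ⊓ (P : Subgroup G) ≤ (frattini ↥(P : Subgroup G)).map (P : Subgroup G).subtype := by
    rintro x ⟨hx1, hx2⟩
    exact ⟨⟨x, hx2⟩, h (mem_subgroupOf.2 hx1), rfl⟩
  have h2 := Cfsg.Agent.S0081.result P N h1
  have h3 : IsPGroup p N := isPGroup_of_compl hcore N.subtype (subtype_injective _)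
    (by rw [range_subtype]; exact hN.isSubnormal) h2
  have h4 : N ≤ P := (CfsgLib.Cores.le_pCore hN h3).trans (CfsgLib.Cores.pCore_le_sylow P)
  rw [inf_eq_left.2 h4] at h1
  apply hN1
  rw [eq_bot_iff, ← hfrat]
  exact Subgroup.normal_le_normalCore.2 h1

theorem exists_syl_normal (E : Subgroup G) [hE : E.Normal] :
    ∃ Q : Sylow p E, (Q : Subgroup E) = (P : Subgroup G).subgroupOf E := by
  have h1 := (CfsgLib.FusionH12.SylIn.ofSylow P).inf_normal (N := E) le_top
    (by rw [normalizer_eq_top])
  obtain ⟨Q, hQ⟩ := h1.toSylow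
  refine ⟨Q, ?_⟩
  rw [hQ, inf_subgroupOf_right]

/-- Frattini subgroups of Sylow subgroups of normal subgroups. -/
theorem frattini_syl_normal (E : Subgroup G) [hE : E.Normal] (Q : Sylow p E)
    (hQ : (Q : Subgroup E) = (P : Subgroup G).subgroupOf E) {x : ↥(Q : Subgroup E)}
    (hx : x ∈ frattini ↥(Q : Subgroup E)) :
    ∃ h : ((x : E) : G) ∈ (P : Subgroup G), (⟨_, h⟩ : ↥(P : Subgroup G)) ∈ frattini ↥(P : Subgroup G) := by
  have hmem : ∀ y : ↥(Q : Subgroup E), ((y : E) : G) ∈ (P : Subgroup G) := by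
    intro y
    exact mem_subgroupOf.1 (hQ.le y.2)
  have hmem2 : ∀ y : ↥(E.subgroupOf (P : Subgroup G)), (⟨((y : ↥(P : Subgroup G)) : G), mem_subgroupOf.1 y.2⟩ : E) ∈ (Q : Subgroup E) := by
    intro y
    rw [hQ]
    exact mem_subgroupOf.2 (y : ↥(P : Subgroup G)).2
  let e : ↥(Q : Subgroup E) ≃* ↥(E.subgroupOf (P : Subgroup G)) :=
    { toFun := fun y => ⟨⟨((y : E) : G), hmem y⟩, mem_subgroupOf.2 (y : E).2⟩
      invFun := fun y => ⟨⟨((y : ↥(P : Subgroup G)) : G), mem_subgroupOf.1 y.2⟩, hmem2 y⟩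
      left_inv := fun _ => rfl
      right_inv := fun _ => rfl
      map_mul' := fun _ _ => rfl }
  have h1 := (frattini_equiv e).1 hx
  haveI : (E.subgroupOf (P : Subgroup G)).Normal := inferInstance
  have h2 := Cfsg.Agent.S0575.result (E.subgroupOf (P : Subgroup G)) ⟨_, h1, rfl⟩
  exact ⟨hmem x, h2⟩

section main
variable (hna : ¬ IsMulCommutative (P : Subgroup G))
    (hgen : (frattini ↥(P : Subgroup G)).index = p ^ 2) (hcore : pPrimeCore p G = ⊥)
    (hfrat : ((frattini ↥(P : Subgroup G)).map (P : Subgroup G).subtype).normalCore = ⊥)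

include hna hgen hcore hfrat in
theorem two_normals (N1 N2 : Subgroup G) [N1.Normal] [N2.Normal] (h1 : N1 ≠ ⊥) (h2 : N2 ≠ ⊥) :
    N1 ⊓ N2 ≠ ⊥ := by
  intro h
  exact two_inv P hna hgen (by rw [normalizer_eq_top]; exact le_top)
    (by rw [normalizer_eq_top]; exact le_top) (normal_not_le P hcore hfrat N1 h1)
    (normal_not_le P hcore hfrat N2 h2) h

include hna hgen hcore hfrat in
theorem fitting_eq_bot_of_layer (hE : layer G ≠ ⊥) : fittingSubgroup G = ⊥ := by
  by_contra hF
  have hZ := two_normals P hna hgen hcore hfrat (fittingSubgroup G) (layer G) hF hE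
  haveI hZn : (fittingSubgroup G ⊓ layer G).Normal := inferInstance
  apply normal_not_le P hcore hfrat _ hZ
  intro x hx
  have hxZ : (x : G) ∈ fittingSubgroup G ⊓ layer G := mem_subgroupOf.1 hx
  obtain ⟨Q, hQ⟩ := exists_syl_normal P (layer G)
  haveI hn : ((fittingSubgroup G ⊓ layer G).subgroupOf (layer G)).Normal := inferInstance
  have h1 : (QuotientGroup.mk' ((fittingSubgroup G ⊓ layer G).subgroupOf (layer G))).ker ≤
      center ↥(layer G) := by
    rw [QuotientGroup.ker_mk']
    intro z hz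
    have h2 : (z : G) ∈ (center ↥(layer G)).map (layer G).subtype := by
      rw [center_layer_eq_fitting_inf]; exact mem_subgroupOf.1 hz
    obtain ⟨w, hw, hwz⟩ := h2
    rwa [← Subtype.ext hwz]
  have h2 : commutator ↥(layer G) = ⊤ := by
    apply Subgroup.map_injective (layer G).subtype_injective
    rw [_root_.commutator_def, map_commutator, ← MonoidHom.range_eq_map, range_subtype,
      commutator_layer]
  have h3 := Cfsg.Agent.S0101.result (QuotientGroup.mk' ((fittingSubgroup G ⊓ layer G).subgroupOf (layer G)))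
    (QuotientGroup.mk'_surjective _) h1 h2 Q
  have h4 : (⟨(x : G), hxZ.2⟩ : ↥(layer G)) ∈
      (QuotientGroup.mk' ((fittingSubgroup G ⊓ layer G).subgroupOf (layer G))).ker ⊓ (Q : Subgroup ↥(layer G)) := by
    refine ⟨?_, ?_⟩
    · rw [QuotientGroup.ker_mk']
      exact mem_subgroupOf.2 hxZ
    · rw [hQ]
      exact mem_subgroupOf.2 x.2
  obtain ⟨y, hy, hyx⟩ := h3 h4
  obtain ⟨h5, h6⟩ := frattini_syl_normal P (layer G) Q hQ hy
  have h8 : (((y : ↥(layer G)) : G)) = x := congrArg (fun z : ↥(layer G) => (z : G)) hyx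
  have h7 : (⟨((y : ↥(layer G)) : G), h5⟩ : ↥(P : Subgroup G)) = x := Subtype.ext h8
  rwa [h7] at h6

include hna hgen hcore hfrat in
theorem layer_le_normal (hE : layer G ≠ ⊥) (K : Subgroup G) [hK : K.Normal] (hK1 : K ≠ ⊥) :
    layer G ≤ K := by
  have hF := fitting_eq_bot_of_layer P hna hgen hcore hfrat hE
  rw [layer]
  apply sSup_le
  intro L hL
  rcases component_le_or_commute hL hK.isSubnormal with h | h
  · exact h
  · exfalso
    rw [commutator_eq_bot_iff_le_centralizer] at h
    have h1 : centralizer (K : Set G) ≠ ⊥ := by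
      intro h2
      rw [h2, le_bot_iff] at h
      exact component_ne_bot hL h
    have h2 := two_normals P hna hgen hcore hfrat (centralizer (K : Set G)) K h1 hK1
    apply h2
    rw [eq_bot_iff, ← hF]
    apply CfsgLib.Cores.le_fittingSubgroup inferInstance
    apply nilpotent_of_comm
    rintro ⟨a, ha⟩ ⟨b, hb⟩
    exact Subtype.ext (mem_centralizer_iff.1 hb.1 a ha.2)

include hna hgen hcore in
theorem layer_transitive (hF : fittingSubgroup G = ⊥) {K L : Subgroup G} (hK : IsComponent K)
    (hL : IsComponent L) : ∃ x ∈ (P : Subgroup G), L = K.map (MulAut.conj x).toMonoidHom := by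
  by_contra hcon
  push Not at hcon
  -- the product of a P-orbit
  let J : Subgroup G → Subgroup G := fun M => ⨆ x : ↥(P : Subgroup G), M.map (MulAut.conj (x : G)).toMonoidHom
  have hJle : ∀ M : Subgroup G, IsComponent M → J M ≤ layer G := by
    intro M hM
    apply iSup_le
    intro x
    exact component_le_layer (isComponent_map_equiv (MulAut.conj (x : G)) hM)
  have hPJ : ∀ M : Subgroup G, (P : Subgroup G) ≤ normalizer (J M : Set G) := by
    intro M
    have key : ∀ g ∈ (P : Subgroup G), (J M).map (MulAut.conj g).toMonoidHom ≤ J M := by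
      intro g hg
      rw [Subgroup.map_iSup]
      apply iSup_le
      intro x
      rw [map_map]
      have : (MulAut.conj g).toMonoidHom.comp (MulAut.conj (x : G)).toMonoidHom =
          (MulAut.conj (((⟨g, hg⟩ : ↥(P : Subgroup G)) * x : ↥(P : Subgroup G)) : G)).toMonoidHom := by
        ext y; simp [mul_assoc]
      rw [this]
      exact le_iSup (fun x : ↥(P : Subgroup G) => M.map (MulAut.conj (x : G)).toMonoidHom) _
    intro g hg
    rw [mem_normalizer_iff]
    intro h
    constructor
    · intro hh; exact key g hg ⟨h, hh, rfl⟩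
    · intro hh
      have := key g⁻¹ (inv_mem hg) ⟨_, hh, rfl⟩
      simpa [mul_assoc] using this
  have hEJ : ∀ M : Subgroup G, IsComponent M → layer G ≤ normalizer (J M : Set G) := by
    intro M hM
    have : J M = sSup (Set.range fun x : ↥(P : Subgroup G) => M.map (MulAut.conj (x : G)).toMonoidHom) := by
      rw [sSup_range]
    rw [this]
    apply le_normalizer_sSup
    rintro _ ⟨x, rfl⟩
    exact layer_le_normalizer_component (isComponent_map_equiv (MulAut.conj (x : G)) hM)
  have hJsn : ∀ M : Subgroup G, IsComponent M → (J M).IsSubnormal := by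
    intro M hM
    haveI : ((J M).subgroupOf (layer G)).Normal :=
      (normal_subgroupOf_iff_le_normalizer (hJle M hM)).2 (hEJ M hM)
    exact isSubnormal_of_subgroupOf (hJle M hM) layer_subnormal this.isSubnormal
  -- not inside the Frattini subgroup
  have hT : ∀ M : Subgroup G, IsComponent M →
      ¬ (J M).subgroupOf (P : Subgroup G) ≤ frattini ↥(P : Subgroup G) := by
    intro M hM hle
    set H := layer G ⊔ (P : Subgroup G) with hH
    have hPH : (P : Subgroup G) ≤ H := le_sup_right
    have hJH : J M ≤ H := (hJle M hM).trans le_sup_left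
    haveI : ((J M).subgroupOf H).Normal :=
      (normal_subgroupOf_iff_le_normalizer hJH).2 (sup_le (hEJ M hM) (hPJ M))
    let P' : Sylow p H := P.subtype hPH
    have hP' : (P' : Subgroup H) = (P : Subgroup G).subgroupOf H := rfl
    let e : ↥(P' : Subgroup H) ≃* ↥(P : Subgroup G) := subgroupOfEquivOfLe hPH
    have h1 : (J M).subgroupOf H ⊓ (P' : Subgroup H) ≤
        (frattini ↥(P' : Subgroup H)).map (P' : Subgroup H).subtype := by
      rintro x ⟨hx1, hx2⟩
      refine ⟨⟨x, hx2⟩, ?_, rfl⟩
      apply (frattini_equiv e).2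
      exact hle (mem_subgroupOf.2 (mem_subgroupOf.1 hx1))
    have h2 := Cfsg.Agent.S0081.result P' ((J M).subgroupOf H) h1
    have h3 : IsPGroup p ((J M).subgroupOf H) := by
      apply isPGroup_of_compl hcore (H.subtype.comp ((J M).subgroupOf H).subtype)
        (H.subtype_injective.comp (subtype_injective _)) _ h2
      rw [MonoidHom.range_comp, range_subtype, subgroupOf_map_subtype, inf_eq_left.2 hJH]
      exact hJsn M hM
    have h4 : IsPGroup p M := by
      have h5 : IsPGroup p (J M) := h3.of_equiv (subgroupOfEquivOfLe hJH)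
      apply h5.to_le
      have : M = M.map (MulAut.conj ((1 : ↥(P : Subgroup G)) : G)).toMonoidHom := by
        ext y; simp
      conv_lhs => rw [this]
      exact le_iSup (fun x : ↥(P : Subgroup G) => M.map (MulAut.conj (x : G)).toMonoidHom) 1
    apply quasisimple_not_solvable hM.2
    haveI := h4.isNilpotent
    infer_instance
  -- the two orbit products commute
  have hcomm : ⁅J K, J L⁆ = ⊥ := by
    rw [commutator_eq_bot_iff_le_centralizer]
    apply iSup_le
    intro x
    rw [← commutator_eq_bot_iff_le_centralizer, commutator_comm, commutator_eq_bot_iff_le_centralizer]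
    apply iSup_le
    intro y
    rw [← commutator_eq_bot_iff_le_centralizer]
    apply components_commute (isComponent_map_equiv (MulAut.conj (y : G)) hL)
      (isComponent_map_equiv (MulAut.conj (x : G)) hK)
    intro h
    apply hcon ((y : G)⁻¹ * x) (mul_mem (inv_mem y.2) x.2)
    have h1 : (L.map (MulAut.conj (y : G)).toMonoidHom).map (MulAut.conj ((y : G)⁻¹)).toMonoidHom = L := by
      rw [map_map]
      convert Subgroup.map_id L
      ext z; simp [mul_assoc]
    rw [← h1, h, map_map]
    congr 1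
    ext z; simp [mul_assoc]
  have hd : J K ⊓ J L = ⊥ := by
    have h1 : J K ⊓ J L ≤ layer G := inf_le_left.trans (hJle K hK)
    have h2 : Group.IsSolvable ↥(J K ⊓ J L) := by
      haveI : Group.IsNilpotent ↥(J K ⊓ J L) := by
        apply nilpotent_of_comm
        rintro ⟨a, ha⟩ ⟨b, hb⟩
        rw [commutator_eq_bot_iff_le_centralizer] at hcomm
        exact Subtype.ext ((mem_centralizer_iff.1 (hcomm hb.1) a ha.2))
      infer_instance
    have h3 : layer G ≤ centralizer ((J K ⊓ J L : Subgroup G) : Set G) := by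
      rw [layer]
      apply sSup_le
      intro M hM
      rw [← commutator_eq_bot_iff_le_centralizer]
      apply component_commute_solvable hM h2
      have hM1 := (component_le_layer hM).trans (hEJ K hK)
      have hM2 := (component_le_layer hM).trans (hEJ L hL)
      apply CfsgLib.H7Frat.le_norm_inf hM1 hM2
    have h4 : J K ⊓ J L ≤ (center ↥(layer G)).map (layer G).subtype := by
      rw [map_center_eq]
      exact le_inf h1 (le_centralizer_iff.1 h3)
    rw [center_layer_eq_fitting_inf, hF, bot_inf_eq, le_bot_iff] at h4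
    exact h4
  exact two_inv P hna hgen (hPJ K) (hPJ L) (hT K hK) (hT L hL) hd

omit [Finite G] [Fact p.Prime] in
include hcore in
theorem fitting_le_pCore [Finite G] [Fact p.Prime] : fittingSubgroup G ≤ pCore p G := by
  rw [CfsgLib.Cores.fittingSubgroup_eq_iSup_pCore]
  apply iSup_le
  intro q
  by_cases hq : (q : ℕ) = p
  · rw [hq]
  · haveI : Fact (q : ℕ).Prime := ⟨q.2⟩
    have h1 : pCore q G ≤ pPrimeCore p G := by
      apply CfsgLib.Cores.le_pPrimeCore inferInstance
      obtain ⟨k, hk⟩ := IsPGroup.iff_card.1 (CfsgLib.Cores.pCore_isPGroup (G := G) (q : ℕ))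
      rw [hk]
      exact Nat.Coprime.pow_left k ((Nat.coprime_primes q.2 Fact.out).2 hq)
    rw [hcore] at h1
    exact h1.trans bot_le

include hcore hfrat in
theorem fitting_elementary : (∀ a ∈ fittingSubgroup G, ∀ b ∈ fittingSubgroup G, a * b = b * a) ∧
    ∀ a ∈ fittingSubgroup G, a ^ p = 1 := by
  have hFp := (fitting_le_pCore (p := p) hcore)
  have hF : fittingSubgroup G ≤ P := hFp.trans (CfsgLib.Cores.pCore_le_sylow P)
  have hFpg : IsPGroup p (fittingSubgroup G) := (CfsgLib.Cores.pCore_isPGroup (G := G) p).to_le hFp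
  have h1 : (frattini ↥(fittingSubgroup G)).map (fittingSubgroup G).subtype = ⊥ := by
    rw [eq_bot_iff, ← hfrat]
    haveI : ((frattini ↥(fittingSubgroup G)).map (fittingSubgroup G).subtype).Normal := inferInstance
    apply Subgroup.normal_le_normalCore.2
    rintro _ ⟨x, hx, rfl⟩
    have h2 := (frattini_equiv (subgroupOfEquivOfLe hF).symm).1 hx
    have h3 := Cfsg.Agent.S0575.result ((fittingSubgroup G).subgroupOf (P : Subgroup G)) ⟨_, h2, rfl⟩
    exact ⟨_, h3, rfl⟩
  rw [Subgroup.map_eq_bot_iff_of_injective _ (subtype_injective _)] at h1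
  obtain ⟨h2, h3⟩ := Cfsg.Agent.S0012.result p hFpg
  rw [h1] at h2 h3
  constructor
  · intro a ha b hb
    rw [le_bot_iff, _root_.commutator_def, commutator_eq_bot_iff_le_centralizer] at h2
    exact congrArg Subtype.val (mem_centralizer_iff.1 (h2 (mem_top (⟨b, hb⟩ : ↥(fittingSubgroup G)))) ⟨a, ha⟩ (mem_top _))
  · intro a ha
    exact congrArg Subtype.val (mem_bot.1 (h3 ⟨a, ha⟩))

include hna hgen hcore hfrat in
theorem fitting_le_normal (K : Subgroup G) [hK : K.Normal] (hK1 : K ≠ ⊥)
    (hFne : fittingSubgroup G ≠ ⊥) : fittingSubgroup G ≤ K := by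
  have hp : p.Prime := Fact.out
  by_contra hcon
  obtain ⟨hFc, hFe⟩ := fitting_elementary P hcore hfrat
  have hFP : fittingSubgroup G ≤ P := (fitting_le_pCore (p := p) hcore).trans
    (CfsgLib.Cores.pCore_le_sylow P)
  set F := fittingSubgroup G with hF
  set M := K ⊓ F with hM
  have hM1 : M ≠ ⊥ := two_normals P hna hgen hcore hfrat K F hK1 hFne
  haveI hMn : M.Normal := inferInstance
  haveI hMc : IsMulCommutative M := ⟨⟨fun a b => Subtype.ext (hFc _ a.2.2 _ b.2.2)⟩⟩
  have hMP : M ≤ P := inf_le_right.trans hFP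
  obtain ⟨b, hb⟩ := exists_gen hgen _ (normal_not_le P hcore hfrat M hM1)
  -- F is not contained in M
  obtain ⟨f, hfF, hfM⟩ : ∃ f ∈ F, f ∉ M := by
    by_contra h
    push Not at h
    exact hcon (fun x hx => (h x hx).1)
  have hfs : (⟨f, hFP hfF⟩ : ↥(P : Subgroup G)) ∈ zpowers b ⊔ M.subgroupOf (P : Subgroup G) := by
    rw [hb]; trivial
  obtain ⟨c, hc, m, hm, hcm⟩ := mem_sup_of_normal_right.1 hfs
  obtain ⟨j, rfl⟩ := mem_zpowers_iff.1 hc
  have hcm' : ((b ^ j : ↥(P : Subgroup G)) : G) * (m : G) = f := congrArg Subtype.val hcm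
  have hmM : (m : G) ∈ M := mem_subgroupOf.1 hm
  set y : G := ((b ^ j : ↥(P : Subgroup G)) : G) with hy
  have hyF : y ∈ F := by
    have : y = f * (m : G)⁻¹ := by rw [← hcm']; group
    rw [this]; exact mul_mem hfF (inv_mem hmM.2)
  have hyM : y ∉ M := by
    intro h
    apply hfM
    rw [← hcm']; exact mul_mem h hmM
  have hyp : y ^ p = 1 := hFe y hyF
  have hyb : y ∈ zpowers (b : G) := ⟨j, by rw [hy]; simp⟩
  -- ⟨b⟩ ∩ M = 1
  have hbM : zpowers (b : G) ⊓ M = ⊥ := by
    by_contra hne
    obtain ⟨⟨z, hz⟩, hz1⟩ := ne_bot_iff_exists_ne_one.mp hne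
    have hz1' : z ≠ 1 := fun h => hz1 (Subtype.ext h)
    have hzp : z ^ p = 1 := hFe z hz.2.2
    have hoz : orderOf z = p := orderOf_eq_prime hzp hz1'
    have hoy : orderOf y = p := orderOf_eq_prime hyp (fun h => hyM (by rw [h]; exact one_mem _))
    have h1 : (⟨y, hyb⟩ : zpowers (b : G)) ∈ zpowers (⟨z, hz.1⟩ : zpowers (b : G)) := by
      apply mem_zpowers_of_cyclic hp
      · exact Subtype.ext hyp
      · rw [orderOf_mk]; exact hoz
    obtain ⟨k, hk⟩ := mem_zpowers_iff.1 h1
    apply hyM
    have h2 : y = z ^ k := by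
      have := congrArg Subtype.val hk
      exact this.symm
    rw [h2]; exact M.zpow_mem hz.2 k
  have hbP : zpowers (b : G) ≤ P := by rw [zpowers_le]; exact b.2
  have hMb : M ⊔ zpowers (b : G) = P := by
    have h1 := congrArg (Subgroup.map (P : Subgroup G).subtype) hb
    rw [Subgroup.map_sup, MonoidHom.map_zpowers, subgroupOf_map_subtype, inf_eq_left.2 hMP,
      ← MonoidHom.range_eq_map, range_subtype] at h1
    rw [sup_comm]; exact h1
  have hcop : (Nat.card M).Coprime (P : Subgroup G).index := by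
    have h1 : IsPGroup p M := P.isPGroup'.to_le hMP
    obtain ⟨k, hk⟩ := IsPGroup.iff_card.1 h1
    rw [hk]
    exact Nat.Coprime.pow_left k ((hp.coprime_iff_not_dvd).2 P.not_dvd_index)
  obtain ⟨H, hH⟩ := Cfsg.Agent.S0051.result M (P : Subgroup G) hMP hcop (zpowers (b : G)) hbP hbM hMb
  -- F ∩ H is normal
  have hn : (F ⊓ H).Normal := by
    rw [← normalizer_eq_top_iff, eq_top_iff, ← hH.sup_eq_top]
    apply sup_le
    · refine le_trans ?_ (centralizer_le_normalizer _)
      intro m hm
      rw [mem_centralizer_iff]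
      intro x hx
      exact hFc _ hx.1 _ hm.2
    · apply le_norm_inf (by rw [normalizer_eq_top]; exact le_top) le_normalizer
  have hne : F ⊓ H ≠ ⊥ := by
    have h1 : f ∈ M ⊔ H := by rw [hH.sup_eq_top]; trivial
    obtain ⟨m', hm', h', hh', hmh⟩ := mem_sup_of_normal_left.1 h1
    intro h2
    have h3 : h' ∈ F ⊓ H := by
      refine ⟨?_, hh'⟩
      have : h' = m'⁻¹ * f := by rw [← hmh]; group
      rw [this]; exact F.mul_mem (F.inv_mem hm'.2) hfF
    rw [h2, mem_bot] at h3
    apply hfM
    rw [← hmh, h3, mul_one]; exact hm'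
  refine two_normals P hna hgen hcore hfrat M (F ⊓ H) hM1 hne ?_
  rw [eq_bot_iff]
  rintro x ⟨hx1, hx2⟩
  have := hH.disjoint.le_bot (⟨hx1, hx2.2⟩ : x ∈ M ⊓ H)
  exact this

include hna hgen hcore hfrat in
theorem s4172 [hFn : (generalizedFittingSubgroup G).Normal] :
    (generalizedFittingSubgroup G ≠ ⊥ ∧ ∀ K : Subgroup G, K.Normal → K ≠ ⊥ → generalizedFittingSubgroup G ≤ K) ∧
      IsCyclic ↥((P : Subgroup G).map (QuotientGroup.mk' (generalizedFittingSubgroup G))) ∧
      (¬ IsMulCommutative (generalizedFittingSubgroup G) → ∀ K L : Subgroup G, IsComponent K → IsComponent L →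
        ∃ x ∈ (P : Subgroup G), L = K.map (MulAut.conj x).toMonoidHom) := by
  have hne : generalizedFittingSubgroup G ≠ ⊥ := by
    intro h
    have h1 := centralizer_gfitting_le (G := G)
    rw [h] at h1
    apply hna
    refine ⟨⟨fun a b => ?_⟩⟩
    have h2 : ∀ x : G, x = 1 := by
      intro x
      have : x ∈ centralizer ((⊥ : Subgroup G) : Set G) := by
        rw [mem_centralizer_iff]
        intro y hy
        rw [SetLike.mem_coe, mem_bot] at hy
        rw [hy, one_mul, mul_one]
      exact mem_bot.1 (h1 this)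
    exact Subtype.ext ((h2 _).trans (h2 _).symm)
  refine ⟨⟨hne, ?_⟩, ?_, ?_⟩
  · intro K hK hK1
    by_cases hE : layer G = ⊥
    · have h1 : generalizedFittingSubgroup G = fittingSubgroup G := by
        rw [generalizedFittingSubgroup, hE, bot_sup_eq]
      rw [h1] at hne ⊢
      exact fitting_le_normal P hna hgen hcore hfrat K hK1 hne
    · rw [generalizedFittingSubgroup, fitting_eq_bot_of_layer P hna hgen hcore hfrat hE, sup_bot_eq]
      exact layer_le_normal P hna hgen hcore hfrat hE K hK1
  · obtain ⟨b, hb⟩ := exists_gen hgen _ (normal_not_le P hcore hfrat _ hne)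
    have h1 := congrArg (Subgroup.map (P : Subgroup G).subtype) hb
    rw [Subgroup.map_sup, MonoidHom.map_zpowers, subgroupOf_map_subtype,
      ← MonoidHom.range_eq_map, range_subtype] at h1
    rw [← h1, Subgroup.map_sup]
    have h2 : (generalizedFittingSubgroup G ⊓ (P : Subgroup G)).map
        (QuotientGroup.mk' (generalizedFittingSubgroup G)) = ⊥ := by
      rw [Subgroup.map_eq_bot_iff, QuotientGroup.ker_mk']; exact inf_le_left
    rw [h2, sup_bot_eq, MonoidHom.map_zpowers]
    infer_instance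
  · intro hnc K L hK hL
    have hE : layer G ≠ ⊥ := by
      intro hE
      apply hnc
      have h1 : generalizedFittingSubgroup G = fittingSubgroup G := by
        rw [generalizedFittingSubgroup, hE, bot_sup_eq]
      rw [h1]
      exact ⟨⟨fun a b => Subtype.ext ((fitting_elementary P hcore hfrat).1 _ a.2 _ b.2)⟩⟩
    exact layer_transitive P hna hgen hcore (fitting_eq_bot_of_layer P hna hgen hcore hfrat hE) hK hL

end main

end

end CfsgLib.H7Frat
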