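import Mathlib

set_option autoImplicit false

/-!
Counting solutions of `x ^ n = 1` in semidirect products and products (helper7), for S4376.
-/

namespace CfsgLib.H7OT

/-- number of solutions of x^n = 1 -/
noncomputable def nn (G : Type) [Group G] (n : ℕ) : ℕ := Nat.card {g : G // g ^ n = 1}

theorem nn_prod (G H : Type) [Group G] [Group H] (n : ℕ) : nn (G × H) n = nn G n * nn H n := by
  change Nat.card _ = Nat.card _ * Nat.card _
  rw [← Nat.card_prod]
  exact Nat.card_congr
    { toFun := fun x => (⟨x.1.1, congrArg Prod.fst x.2⟩, ⟨x.1.2, congrArg Prod.snd x.2⟩)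
      invFun := fun y => ⟨(y.1.1, y.2.1), Prod.ext y.1.2 y.2.2⟩
      left_inv := fun _ => rfl
      right_inv := fun _ => rfl }

theorem nn_pi (G : Type) [Group G] (k n : ℕ) : nn (Fin k → G) n = nn G n ^ k := by
  change Nat.card _ = Nat.card _ ^ k
  have e : {g : Fin k → G // g ^ n = 1} ≃ (Fin k → {g : G // g ^ n = 1}) :=
    { toFun := fun x i => ⟨x.1 i, congrFun x.2 i⟩
      invFun := fun y => ⟨fun i => (y i).1, funext fun i => (y i).2⟩
      left_inv := fun _ => rfl
      right_inv := fun _ => rfl }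
  rw [Nat.card_congr e, Nat.card_fun, Nat.card_fin]

/-- the vector of a group of exponent dividing 84 -/
def Good (G : Type) [Group G] (v : ℕ → ℕ) : Prop := ∀ n, nn G n = v (Nat.gcd n 84)

theorem Good.prod {G H : Type} [Group G] [Group H] {v w : ℕ → ℕ} (hG : Good G v) (hH : Good H w) :
    Good (G × H) (fun d => v d * w d) := fun n => by rw [nn_prod, hG n, hH n]

theorem Good.pi {G : Type} [Group G] {v : ℕ → ℕ} (hG : Good G v) (k : ℕ) :
    Good (Fin k → G) (fun d => v d ^ k) := fun n => by rw [nn_pi, hG n]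

theorem good_of (G : Type) [Group G] [Finite G] (v : ℕ → ℕ) (hv : ∀ d ∈ Nat.divisors 84, nn G d = v d)
    (hc : v 84 = Nat.card G) : Good G v := by
  have h84 : ∀ g : G, g ^ 84 = 1 := by
    have h1 := hv 84 (by decide)
    rw [hc] at h1
    have h2 : {g : G | g ^ 84 = 1} = Set.univ := by
      apply Set.eq_of_subset_of_ncard_le (Set.subset_univ _)
      rw [Set.ncard_univ]
      exact h1.ge
    intro g
    have : g ∈ {g : G | g ^ 84 = 1} := by rw [h2]; trivial
    exact this
  intro n
  rw [← hv _ (by rw [Nat.mem_divisors]; exact ⟨Nat.gcd_dvd_right _ _, by norm_num⟩)]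
  change Nat.card _ = Nat.card _
  congr 2
  funext g
  apply propext
  constructor
  · intro h
    rw [← orderOf_dvd_iff_pow_eq_one] at h ⊢
    exact Nat.dvd_gcd h (orderOf_dvd_of_pow_eq_one (h84 g))
  · intro h
    rw [← orderOf_dvd_iff_pow_eq_one] at h ⊢
    exact h.trans (Nat.gcd_dvd_left _ _)

theorem order_type (G H : Type) [Group G] [Finite G] [Group H] [Finite H]
    (h : ∀ n, nn G n = nn H n) (n : ℕ) :
    Nat.card {g : G // orderOf g = n} = Nat.card {g : H // orderOf g = n} := by
  classical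
  have key : ∀ (K : Type) [Group K] [Finite K] (n : ℕ), 0 < n →
      nn K n = ∑ d ∈ n.divisors, Nat.card {g : K // orderOf g = d} := by
    intro K _ _ n hn
    letI : Fintype K := Fintype.ofFinite K
    change Nat.card _ = _
    rw [Nat.card_eq_fintype_card, Fintype.card_subtype]
    have h1 : ∀ d, Nat.card {g : K // orderOf g = d} = (Finset.univ.filter (fun g : K => orderOf g = d)).card := by
      intro d
      rw [Nat.card_eq_fintype_card, Fintype.card_subtype]
    simp only [h1]
    rw [← Finset.card_biUnion]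
    · congr 1
      ext g
      simp only [Finset.mem_filter, Finset.mem_univ, true_and, Finset.mem_biUnion, Nat.mem_divisors]
      constructor
      · intro hg
        exact ⟨orderOf g, ⟨orderOf_dvd_of_pow_eq_one hg, hn.ne'⟩, rfl⟩
      · rintro ⟨d, ⟨hd, -⟩, rfl⟩
        exact orderOf_dvd_iff_pow_eq_one.mp hd
    · intro a _ b _ hab
      rw [Function.onFun, Finset.disjoint_left]
      intro g hg hg'
      exact hab ((Finset.mem_filter.mp hg).2.symm.trans (Finset.mem_filter.mp hg').2)
  induction n using Nat.strong_induction_on with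
  | _ n ih =>
    rcases Nat.eq_zero_or_pos n with rfl | hn
    · have h0 : ∀ (K : Type) [Group K] [Finite K], Nat.card {g : K // orderOf g = 0} = 0 := by
        intro K _ _
        rw [Nat.card_eq_zero]
        left
        exact ⟨fun x => (orderOf_pos x.1).ne' x.2⟩
      rw [h0, h0]
    · have h1 := key G n hn
      have h2 := key H n hn
      rw [h n, h2, ← Nat.cons_self_properDivisors hn.ne', Finset.sum_cons, Finset.sum_cons] at h1
      have h3 : ∑ d ∈ n.properDivisors, Nat.card {g : H // orderOf g = d} =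
          ∑ d ∈ n.properDivisors, Nat.card {g : G // orderOf g = d} := by
        apply Finset.sum_congr rfl
        intro d hd
        exact (ih d (Nat.mem_properDivisors.mp hd).2).symm
      omega

/-- The group `ZMod m ⋊ K` with action by a character `χ : K → ZMod m`. -/
@[ext] structure Aff (m : ℕ) (K : Type) [Group K] (χ : K →* ZMod m) where
  /-- vector part -/
  v : ZMod m
  /-- group part -/
  k : K

namespace Aff

variable {m : ℕ} {K : Type} [Group K] {χ : K →* ZMod m}

/-- equivalence with a product type -/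
def equiv : Aff m K χ ≃ ZMod m × K where
  toFun x := (x.v, x.k)
  invFun y := ⟨y.1, y.2⟩
  left_inv _ := rfl
  right_inv _ := rfl

instance [DecidableEq K] : DecidableEq (Aff m K χ) := fun a b =>
  if h : a.v = b.v ∧ a.k = b.k then isTrue (Aff.ext h.1 h.2) else isFalse (fun e => h ⟨e ▸ rfl, e ▸ rfl⟩)

instance [NeZero m] [Fintype K] : Fintype (Aff m K χ) := Fintype.ofEquiv _ equiv.symm

theorem chi_inv (k : K) : χ k⁻¹ * χ k = 1 := by rw [← map_mul, inv_mul_cancel, map_one]

instance : Group (Aff m K χ) where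
  mul x y := ⟨x.v + χ x.k * y.v, x.k * y.k⟩
  one := ⟨0, 1⟩
  inv x := ⟨-(χ x.k⁻¹ * x.v), x.k⁻¹⟩
  mul_assoc x y z := by
    apply Aff.ext
    · change (x.v + χ x.k * y.v) + χ (x.k * y.k) * z.v = x.v + χ x.k * (y.v + χ y.k * z.v)
      rw [map_mul]; ring
    · exact mul_assoc _ _ _
  one_mul x := by
    apply Aff.ext
    · change 0 + χ 1 * x.v = x.v
      rw [map_one]; ring
    · exact one_mul _
  mul_one x := by
    apply Aff.ext
    · change x.v + χ x.k * 0 = x.v
      ring
    · exact mul_one _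
  inv_mul_cancel x := by
    apply Aff.ext
    · change -(χ x.k⁻¹ * x.v) + χ x.k⁻¹ * x.v = 0
      ring
    · exact inv_mul_cancel _

theorem mul_v (x y : Aff m K χ) : (x * y).v = x.v + χ x.k * y.v := rfl
theorem mul_k (x y : Aff m K χ) : (x * y).k = x.k * y.k := rfl
theorem one_v : (1 : Aff m K χ).v = 0 := rfl
theorem one_k : (1 : Aff m K χ).k = 1 := rfl

/-- the projection -/
def proj (m : ℕ) (K : Type) [Group K] (χ : K →* ZMod m) : Aff m K χ →* K where
  toFun x := x.k
  map_one' := rfl
  map_mul' _ _ := rfl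

theorem pow_eq (x : Aff m K χ) (n : ℕ) :
    x ^ n = ⟨(∑ i ∈ Finset.range n, χ x.k ^ i) * x.v, x.k ^ n⟩ := by
  induction n with
  | zero => apply Aff.ext <;> simp [one_v, one_k]
  | succ n ih =>
    rw [pow_succ', ih]
    apply Aff.ext
    · rw [mul_v]
      change x.v + χ x.k * ((∑ i ∈ Finset.range n, χ x.k ^ i) * x.v) = _
      rw [Finset.sum_range_succ']
      change _ = (∑ i ∈ Finset.range n, χ x.k ^ (i + 1) + χ x.k ^ 0) * x.v
      simp only [pow_succ']
      rw [← Finset.mul_sum]; ring
    · rw [mul_k]; exact (pow_succ' _ _).symm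

theorem isSolvable [hK : Group.IsSolvable K] : Group.IsSolvable (Aff m K χ) := by
  haveI : Group.IsSolvable (proj m K χ).ker := by
    apply isSolvable_of_comm
    rintro ⟨a, ha⟩ ⟨b, hb⟩
    apply Subtype.ext
    have ha' : a.k = 1 := ha
    have hb' : b.k = 1 := hb
    apply Aff.ext
    · change (a * b).v = (b * a).v
      rw [mul_v, mul_v, ha', hb', map_one]; ring
    · change (a * b).k = (b * a).k
      rw [mul_k, mul_k, ha', hb']
  exact solvable_of_ker_le_range (proj m K χ).ker.subtype (proj m K χ) (by rw [Subgroup.range_subtype])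

/-- weight -/
def cc (m n : ℕ) (a : ZMod m) : ℕ := if a = 1 ∧ ¬ m ∣ n then 1 else m

theorem sum_eq [hm : Fact m.Prime] [Fintype K] [DecidableEq K] (w : K → ℕ) (n : ℕ) :
    ∑ x : Aff m K χ, (if x ^ n = 1 then w x.k else 0) =
      ∑ k : K, if k ^ n = 1 then cc m n (χ k) * w k else 0 := by
  classical
  haveI : NeZero m := ⟨hm.out.ne_zero⟩
  rw [← (equiv (m := m) (χ := χ)).symm.sum_comp, Fintype.sum_prod_type_right]
  apply Finset.sum_congr rfl
  intro k _
  have h1 : ∀ v : ZMod m, ((equiv (m := m) (χ := χ)).symm (v, k)) ^ n = 1 ↔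
      ((∑ i ∈ Finset.range n, χ k ^ i) * v = 0 ∧ k ^ n = 1) := by
    intro v
    rw [pow_eq]
    constructor
    · intro h
      exact ⟨congrArg Aff.v h, congrArg Aff.k h⟩
    · rintro ⟨h1, h2⟩
      exact Aff.ext h1 h2
  have h2 : ∀ v : ZMod m, (if ((equiv (m := m) (χ := χ)).symm (v, k)) ^ n = 1
      then w ((equiv (m := m) (χ := χ)).symm (v, k)).k else 0) =
      if (∑ i ∈ Finset.range n, χ k ^ i) * v = 0 then (if k ^ n = 1 then w k else 0) else 0 := by
    intro v
    have : ((equiv (m := m) (χ := χ)).symm (v, k)).k = k := rfl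
    rw [this]
    by_cases ha : (∑ i ∈ Finset.range n, χ k ^ i) * v = 0 <;> by_cases hb : k ^ n = 1 <;>
      simp [h1, ha, hb]
  rw [Finset.sum_congr rfl (fun v _ => h2 v)]
  by_cases hk : k ^ n = 1
  · simp only [hk, if_true]
    rw [← Finset.sum_filter, Finset.sum_const, smul_eq_mul]
    congr 1
    rw [cc]
    split_ifs with hc
    · obtain ⟨hc1, hc2⟩ := hc
      have : (∑ i ∈ Finset.range n, χ k ^ i) = (n : ZMod m) := by
        rw [hc1]; simp
      rw [this]
      rw [Finset.card_eq_one]
      refine ⟨0, ?_⟩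
      ext v
      simp only [Finset.mem_filter, Finset.mem_univ, true_and, Finset.mem_singleton]
      rw [mul_eq_zero, ZMod.natCast_eq_zero_iff]
      constructor
      · rintro (h | h)
        · exact absurd h hc2
        · exact h
      · intro h; exact Or.inr h
    · have hs : (∑ i ∈ Finset.range n, χ k ^ i) = 0 := by
        by_cases h1 : χ k = 1
        · have hmn : m ∣ n := by
            by_contra hcon
            exact hc ⟨h1, hcon⟩
          rw [h1]
          simp only [one_pow, Finset.sum_const, Finset.card_range, nsmul_eq_mul, mul_one]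
          rw [ZMod.natCast_eq_zero_iff]; exact hmn
        · have h2 := geom_sum_mul (χ k) n
          rw [← map_pow, hk, map_one, sub_self] at h2
          rcases mul_eq_zero.mp h2 with h | h
          · exact h
          · exact absurd (sub_eq_zero.mp h) h1
      simp only [hs, zero_mul, Finset.filter_true, Finset.card_univ, ZMod.card]
  · simp [hk]

end Aff

theorem nn_eq_sum (G : Type) [Group G] [Fintype G] [DecidableEq G] (n : ℕ) :
    nn G n = ∑ g : G, if g ^ n = 1 then 1 else 0 := by
  change Nat.card _ = _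
  rw [Nat.card_eq_fintype_card, Fintype.card_subtype, Finset.card_filter]

/-- one character -/
theorem nn_aff1 (m : ℕ) [Fact m.Prime] (K : Type) [Group K] [Fintype K] [DecidableEq K]
    (χ : K →* ZMod m) (n : ℕ) :
    nn (Aff m K χ) n = ∑ k : K, if k ^ n = 1 then Aff.cc m n (χ k) else 0 := by
  haveI : NeZero m := ⟨(Fact.out : m.Prime).ne_zero⟩
  rw [nn_eq_sum, Aff.sum_eq (fun _ => 1) n]
  simp

/-- two characters -/
theorem nn_aff2 (m m' : ℕ) [Fact m.Prime] [Fact m'.Prime] (K : Type) [Group K] [Fintype K]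
    [DecidableEq K] (χ : K →* ZMod m) (χ' : K →* ZMod m') (n : ℕ) :
    nn (Aff m' (Aff m K χ) (χ'.comp (Aff.proj m K χ))) n =
      ∑ k : K, if k ^ n = 1 then Aff.cc m n (χ k) * Aff.cc m' n (χ' k) else 0 := by
  haveI : NeZero m := ⟨(Fact.out : m.Prime).ne_zero⟩
  haveI : NeZero m' := ⟨(Fact.out : m'.Prime).ne_zero⟩
  rw [nn_aff1]
  exact Aff.sum_eq (fun k => Aff.cc m' n (χ' k)) n

/-- three characters -/
theorem nn_aff3 (m m' m'' : ℕ) [Fact m.Prime] [Fact m'.Prime] [Fact m''.Prime] (K : Type) [Group K]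
    [Fintype K] [DecidableEq K] (χ : K →* ZMod m) (χ' : K →* ZMod m') (χ'' : K →* ZMod m'') (n : ℕ) :
    nn (Aff m'' (Aff m' (Aff m K χ) (χ'.comp (Aff.proj m K χ)))
      ((χ''.comp (Aff.proj m K χ)).comp (Aff.proj m' _ _))) n =
      ∑ k : K, if k ^ n = 1 then Aff.cc m n (χ k) * (Aff.cc m' n (χ' k) * Aff.cc m'' n (χ'' k)) else 0 := by
  haveI : NeZero m := ⟨(Fact.out : m.Prime).ne_zero⟩
  haveI : NeZero m' := ⟨(Fact.out : m'.Prime).ne_zero⟩
  haveI : NeZero m'' := ⟨(Fact.out : m''.Prime).ne_zero⟩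
  rw [nn_aff2 m' m'' (Aff m K χ)]
  exact Aff.sum_eq (fun k => Aff.cc m' n (χ' k) * Aff.cc m'' n (χ'' k)) n

theorem isSolvable_pi (k : ℕ) (G : Type) [Group G] [hG : Group.IsSolvable G] :
    Group.IsSolvable (Fin k → G) := by
  obtain ⟨n, hn⟩ := hG
  refine ⟨n, ?_⟩
  rw [eq_bot_iff]
  intro f hf
  rw [Subgroup.mem_bot]
  funext i
  have h1 := map_derivedSeries_le_derivedSeries (Pi.evalMonoidHom (fun _ : Fin k => G) i) n
  have h2 : f i ∈ derivedSeries G n := h1 ⟨f, hf, rfl⟩
  rw [hn, Subgroup.mem_bot] at h2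
  exact h2

end CfsgLib.H7OT
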