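import Mathlib
import Cfsg.Agent.LibH6Jordan
import Cfsg.Agent.LibPermBasic

/-! Permutation groups containing cycles of large prime length. -/

set_option autoImplicit false

namespace CfsgLib.H7PG

open Equiv Equiv.Perm MulAction

variable {α : Type*} [Fintype α] [DecidableEq α]

/-- a transitive group containing a prime cycle of length more than half the degree is primitive -/
theorem prim_of_cycle (G : Subgroup (Perm α)) [hT : IsPretransitive G α] {y : Perm α} (hy : y ∈ G)
    (hyc : y.IsCycle) (hq : y.support.card.Prime) (hlt : Fintype.card α < 2 * y.support.card) :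
    IsPreprimitive G α := by
  classical
  set s : Set α := (y.support : Set α)ᶜ with hs
  haveI := isPretransitive_of_isCycle_mem hyc hy
  have hcard : Nat.card (SubMulAction.ofFixingSubgroup G s) = y.support.card := by
    rw [Nat.card_eq_fintype_card, Fintype.card_subtype]
    apply congr_arg
    ext x
    simp [SubMulAction.mem_ofFixingSubgroup_iff, hs]
  haveI : IsPreprimitive (fixingSubgroup G s) (SubMulAction.ofFixingSubgroup G s) := by
    apply IsPreprimitive.of_prime_card
    rw [hcard]; exact hq
  let f : (SubMulAction.ofFixingSubgroup G s) →ₑ[(fixingSubgroup G s).subtype] α :=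
    { toFun := fun x => (x : α), map_smul' := fun m x => rfl }
  apply IsPreprimitive.of_card_lt (f := f)
  have h1 : (Set.range f).ncard = y.support.card := by
    rw [← hcard, ← Nat.card_coe_set_eq]
    exact (Nat.card_congr (Equiv.ofInjective _ Subtype.val_injective)).symm
  rw [h1, Nat.card_eq_fintype_card]
  exact hlt

/-- points moved by a permutation of prime order have full orbits -/
theorem orbit_inj {x : Perm α} {p : ℕ} (hp : p.Prime) (hx : orderOf x = p) {a : α} (ha : a ∈ x.support)
    {i j : ℕ} (hi : i < p) (hj : j < p) (hij : (x ^ i) a = (x ^ j) a) : i = j := by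
  have key : ∀ i j : ℕ, i < j → j < p → (x ^ i) a = (x ^ j) a → False := by
    intro i j h1 h2 h3
    have h4 : (x ^ (j - i)) a = a := by
      have : x ^ j = x ^ i * x ^ (j - i) := by rw [← pow_add]; congr 1; omega
      rw [this, Perm.mul_apply] at h3
      exact ((x ^ i).injective h3).symm
    have h5 : (j - i).Coprime p := (Nat.coprime_of_lt_prime (by omega) (by omega) hp).symm
    obtain ⟨m, hm⟩ := exists_pow_eq_self_of_coprime (n := j - i) (x := x) (by rw [hx]; exact h5)
    have h6 : ∀ k : ℕ, ((x ^ (j - i)) ^ k) a = a := by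
      intro k
      induction k with
      | zero => simp
      | succ k ih => rw [pow_succ, Perm.mul_apply, h4, ih]
    have h7 := h6 m
    rw [hm] at h7
    exact (mem_support.mp ha) h7
  rcases lt_trichotomy i j with h | h | h
  · exact (key i j h hj hij).elim
  · exact h
  · exact (key j i h hi hij.symm).elim

theorem trans_of (G : Subgroup (Perm α)) {x y : Perm α} (hxG : x ∈ G) (hyG : y ∈ G) {p q : ℕ} (hp : p.Prime)
    (hpq : p < q) (hx : orderOf x = p) (hyc : y.IsCycle) (hyq : y.support.card = q)
    (hα : Fintype.card α ≤ 2 * p) (hcov : ∀ a, a ∈ x.support ∨ a ∈ y.support) : IsPretransitive G α := by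
  classical
  obtain ⟨b0, hb0⟩ : y.support.Nonempty := hyc.nonempty_support
  have key : ∀ a, ∃ g ∈ G, g a = b0 := by
    have key1 : ∀ a ∈ y.support, ∃ g ∈ G, g a = b0 := by
      intro a ha
      obtain ⟨i, hi⟩ := hyc.exists_zpow_eq (mem_support.mp ha) (mem_support.mp hb0)
      exact ⟨y ^ i, G.zpow_mem hyG i, hi⟩
    intro a
    by_cases ha : a ∈ y.support
    · exact key1 a ha
    have hax : a ∈ x.support := (hcov a).resolve_right ha
    obtain ⟨i, hi⟩ : ∃ i : ℕ, (x ^ i) a ∈ y.support := by
      by_contra hcon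
      push Not at hcon
      have h1 : (Finset.range p).card ≤ (y.supportᶜ).card := by
        apply Finset.card_le_card_of_injOn (fun i => (x ^ i) a)
        · intro i _
          show (x ^ i) a ∈ ((y.supportᶜ : Finset α) : Set α)
          rw [Finset.mem_coe, Finset.mem_compl]
          exact hcon i
        · intro i hi j hj hij
          rw [Finset.coe_range, Set.mem_Iio] at hi hj
          exact orbit_inj hp hx hax hi hj hij
      rw [Finset.card_range, Finset.card_compl, hyq] at h1
      have := hp.pos
      omega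
    obtain ⟨g, hg, hga⟩ := key1 _ hi
    exact ⟨g * x ^ i, G.mul_mem hg (G.pow_mem hxG i), hga⟩
  refine ⟨fun a b => ?_⟩
  obtain ⟨g, hg, hga⟩ := key a
  obtain ⟨h, hh, hhb⟩ := key b
  refine ⟨⟨h⁻¹ * g, G.mul_mem (G.inv_mem hh) hg⟩, ?_⟩
  show (h⁻¹ * g) a = b
  rw [Perm.mul_apply, hga, ← hhb]; simp

/-- normaliser of a cyclic subgroup of prime order with small centraliser -/
theorem card_normalizing {H : Type*} [Group H] [Finite H] {x : H} {r : ℕ} (hr : r.Prime) (hx : orderOf x = r)
    (N : Subgroup H) (hxN : x ∈ N) (hN : ∀ n ∈ N, n * x * n⁻¹ ∈ Subgroup.zpowers x)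
    (hC : ∀ n ∈ N, n * x = x * n → n ∈ Subgroup.zpowers x) :
    ∃ f, Nat.card N = r * f ∧ f ∣ r - 1 := by
  classical
  have hmaps : ∀ n ∈ N, ∀ z ∈ Subgroup.zpowers x, n * z * n⁻¹ ∈ Subgroup.zpowers x := by
    intro n hn z hz
    obtain ⟨k, rfl⟩ := Subgroup.mem_zpowers_iff.mp hz
    rw [← conj_zpow]
    exact Subgroup.zpow_mem _ (hN n hn) k
  let P : Subgroup N := (Subgroup.zpowers x).subgroupOf N
  haveI hPn : P.Normal := by
    refine ⟨fun z hz n => ?_⟩
    rw [Subgroup.mem_subgroupOf] at hz ⊢
    exact hmaps n n.2 z hz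
  have hPle : Subgroup.zpowers x ≤ N := by rw [Subgroup.zpowers_le]; exact hxN
  have hPc : Nat.card P = r := by
    rw [Nat.card_congr (Subgroup.subgroupOfEquivOfLe hPle).toEquiv, Nat.card_zpowers, hx]
  let φ : N →* MulAut P := MulAut.conjNormal
  have hker : φ.ker = P := by
    ext n
    rw [MonoidHom.mem_ker]
    constructor
    · intro h
      have h1 := congrArg (fun f => ((f ⟨⟨x, hxN⟩, Subgroup.mem_zpowers x⟩ : P) : N)) h
      simp only [φ, MulAut.conjNormal_apply, MulAut.one_apply] at h1
      have h2 := congrArg Subtype.val h1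
      rw [Subgroup.mem_subgroupOf]
      apply hC n n.2
      have h3 : (n : H) * x * (n : H)⁻¹ = x := h2
      exact mul_inv_eq_iff_eq_mul.mp h3
    · intro h
      rw [Subgroup.mem_subgroupOf] at h
      obtain ⟨k, hk⟩ := Subgroup.mem_zpowers_iff.mp h
      ext z
      obtain ⟨j, hj⟩ := Subgroup.mem_zpowers_iff.mp z.2
      simp only [φ, MulAut.conjNormal_apply, MulAut.one_apply]
      have h4 : (z : N) = ((z : N) : N) := rfl
      show ((n : H) * ((z : N) : H) * (n : H)⁻¹) = ((z : N) : H)
      have hj' : x ^ j = ((z : N) : H) := hj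
      rw [← hk, ← hj', ← zpow_add, ← zpow_neg, ← zpow_add]
      congr 1; ring
  have h1 : Nat.card N = Nat.card φ.ker * Nat.card φ.range := by
    rw [← Subgroup.card_mul_index φ.ker, Subgroup.index_ker]
  haveI : IsCyclic P := isCyclic_of_prime_card (p := r) (hp := ⟨hr⟩) hPc
  have h2 : Nat.card (MulAut P) = r - 1 := by
    rw [IsCyclic.card_mulAut, hPc, Nat.totient_prime hr]
  refine ⟨Nat.card φ.range, by rw [h1, hker, hPc], ?_⟩
  rw [← h2]
  exact Subgroup.card_subgroup_dvd_card _

end CfsgLib.H7PG
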