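import Mathlib
import Cfsg.Agent.LibH7PG1

set_option autoImplicit false

namespace CfsgLib.H7PG

open Equiv Equiv.Perm MulAction

variable {α : Type*} [Fintype α] [DecidableEq α]

theorem cent_cycle {x c : Perm α} (hx : x.IsCycle) (hc : c * x = x * c) (hfix : ∀ a, a ∉ x.support → c a = a) :
    c ∈ Subgroup.zpowers x := by
  obtain ⟨a, ha⟩ := hx.nonempty_support
  obtain ⟨k, hk⟩ := CfsgLib.H6.cycle_comm_pow hx hc ha
  refine Subgroup.mem_zpowers_iff.mpr ⟨k, ?_⟩
  ext b
  by_cases hb : b ∈ x.support
  · rw [hk b hb]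
  · rw [hfix b hb]
    have : (x ^ k) b = b := by
      have h1 : x b = b := by rwa [mem_support, not_not] at hb
      exact zpow_apply_eq_self_of_apply_eq_self h1 k
    exact this

theorem invert_of_norm {H : Type*} [Group H] {x t : H} {r : ℕ} (hr : r.Prime) (hx : orderOf x = r)
    (ht : t ^ 2 = 1) (hn : t * x * t⁻¹ ∈ Subgroup.zpowers x) (hc : t * x ≠ x * t) : t * x * t⁻¹ = x⁻¹ := by
  obtain ⟨k, hk⟩ := Subgroup.mem_zpowers_iff.mp hn
  have h1 : x ^ (k * k) = x := by
    have h2 : t * (t * x * t⁻¹) * t⁻¹ = x := by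
      have ht' : t * t = 1 := by rw [← sq]; exact ht
      calc t * (t * x * t⁻¹) * t⁻¹ = (t * t) * x * (t * t)⁻¹ := by group
        _ = x := by rw [ht']; group
    rw [← hk, ← conj_zpow, ← hk, ← zpow_mul] at h2
    exact h2
  have h3 : (r : ℤ) ∣ k * k - 1 := by
    rw [← hx, orderOf_dvd_iff_zpow_eq_one, zpow_sub, h1, zpow_one, mul_inv_cancel]
  have h4 : (r : ℤ) ∣ (k - 1) * (k + 1) := by
    have : (k - 1) * (k + 1) = k * k - 1 := by ring
    rw [this]; exact h3
  rcases Int.Prime.dvd_mul' hr h4 with h | h
  · exfalso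
    apply hc
    rw [← hx, orderOf_dvd_iff_zpow_eq_one, zpow_sub, zpow_one, mul_inv_eq_one] at h
    rw [h] at hk
    exact (mul_inv_eq_iff_eq_mul.mp hk.symm)
  · rw [← hx, orderOf_dvd_iff_zpow_eq_one, zpow_add, zpow_one] at h
    rw [← hk]
    exact eq_inv_of_mul_eq_one_left h

theorem sign_inverting {x t : Perm α} (hxc : x.IsCycle) {r : ℕ} (hr : r.Prime) (hodd : r ≠ 2)
    (hx : x.support.card = r) (ht2 : t ^ 2 = 1) (htx : t * x * t⁻¹ = x⁻¹)
    (hfix : ∀ a, a ∉ x.support → t a = a) : sign t = (-1) ^ ((r - 1) / 2) := by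
  classical
  have hsub : t.support ⊆ x.support := by
    intro a ha
    by_contra h
    exact (mem_support.mp ha) (hfix a h)
  have h2 := two_dvd_card_support ht2
  have hro : r % 2 = 1 := by
    rcases hr.eq_two_or_odd with h | h
    · exact absurd h hodd
    · exact h
  obtain ⟨a, hax, hat⟩ : ∃ a ∈ x.support, t a = a := by
    by_contra hcon
    push Not at hcon
    have : t.support = x.support := by
      apply Finset.Subset.antisymm hsub
      intro a ha
      exact mem_support.mpr (hcon a ha)
    rw [this, hx] at h2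
    omega
  have hor : orderOf x = r := by rw [hxc.orderOf, hx]
  have htz : ∀ i : ℤ, t * x ^ i = x ^ (-i) * t := by
    intro i
    have : t * x ^ i * t⁻¹ = x ^ (-i) := by
      rw [← conj_zpow, htx, inv_zpow, zpow_neg]
    exact mul_inv_eq_iff_eq_mul.mp this
  have hsupp : t.support = x.support.erase a := by
    ext b
    rw [Finset.mem_erase]
    constructor
    · intro hb
      refine ⟨?_, hsub hb⟩
      rintro rfl
      exact (mem_support.mp hb) hat
    · rintro ⟨hba, hb⟩
      rw [mem_support]
      intro htb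
      obtain ⟨i, hi⟩ := hxc.exists_zpow_eq (mem_support.mp hax) (mem_support.mp hb)
      have h3 : t b = (x ^ (-i)) a := by
        rw [← hi, ← Perm.mul_apply, htz, Perm.mul_apply, hat]
      rw [htb, ← hi] at h3
      have h4 : (x ^ (i + i)) a = a := by
        rw [zpow_add, Perm.mul_apply, h3, ← Perm.mul_apply, ← zpow_add]; simp
      have h5 : x ^ (i + i) = 1 := by
        have h6 : ∀ c ∈ x.support, (x ^ (i + i)) c = c := by
          intro c hc
          obtain ⟨j, hj⟩ := hxc.exists_zpow_eq (mem_support.mp hax) (mem_support.mp hc)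
          rw [← hj, ← Perm.mul_apply, ← zpow_add, add_comm, zpow_add, Perm.mul_apply, h4]
        ext c
        by_cases hc : c ∈ x.support
        · rw [h6 c hc]; rfl
        · have h7 : x c = c := by rwa [mem_support, not_not] at hc
          rw [zpow_apply_eq_self_of_apply_eq_self h7]; rfl
      rw [← orderOf_dvd_iff_zpow_eq_one, hor] at h5
      have h6 : (r : ℤ) ∣ i := by
        have h7 : (r : ℤ) ∣ 2 * i := by rw [two_mul]; exact h5
        rcases Int.Prime.dvd_mul' hr h7 with h | h
        · exfalso
          have : r ∣ 2 := by exact_mod_cast h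
          exact hodd ((Nat.prime_dvd_prime_iff_eq hr Nat.prime_two).mp this)
        · exact h
      rw [← hor, orderOf_dvd_iff_zpow_eq_one] at h6
      rw [h6] at hi
      exact hba hi.symm
  rw [sign_of_pow_two_eq_one ht2]
  congr 2
  rw [show r - 1 = t.support.card by rw [hsupp, Finset.card_erase_of_mem hax, hx]]
  have h8 : Fintype.card (Function.fixedPoints t) = Fintype.card α - t.support.card := by
    rw [card_fixedPoints, sum_cycleType]
  rw [h8]
  have := Finset.card_le_univ t.support
  omega

theorem sylow_count {S : Type*} [Fintype S] [DecidableEq S] {r : ℕ} [Fact r.Prime] (hr2 : r ≠ 2)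
    (hS : Fintype.card S = r)
    (K : Subgroup (Perm S)) {x : Perm S} (hxK : x ∈ K) (hx : x.IsCycle) (hxs : x.support.card = r) :
    ∃ f, f ∣ r - 1 ∧ Nat.card K = r * f * Nat.card (Sylow r K) ∧ Nat.card (Sylow r K) ≡ 1 [MOD r] ∧
      ((∀ g ∈ K, sign g = 1) → Odd ((r - 1) / 2) → Odd f) := by
  classical
  have hr : r.Prime := Fact.out
  have hsupp : x.support = Finset.univ := by
    rw [← Finset.card_eq_iff_eq_univ, hxs, hS]
  have hor : orderOf x = r := by rw [hx.orderOf, hxs]
  set x' : K := ⟨x, hxK⟩ with hx'
  have hor' : orderOf x' = r := by rw [Subgroup.orderOf_mk]; exact hor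
  have hz : IsPGroup r (Subgroup.zpowers x') :=
    IsPGroup.of_card (n := 1) (by rw [Nat.card_zpowers, hor', pow_one])
  obtain ⟨P, hP⟩ := hz.exists_le_sylow
  have hr2f : ¬ r ^ 2 ∣ r.factorial := by
    intro h
    obtain ⟨m, hm⟩ : ∃ m, r = m + 1 := ⟨r - 1, by have := hr.pos; omega⟩
    have h1 : r.factorial = r * (r - 1).factorial := by
      rw [hm, Nat.factorial_succ, Nat.add_sub_cancel]
    rw [h1, sq] at h
    have h2 := Nat.dvd_of_mul_dvd_mul_left hr.pos h
    rw [hr.dvd_factorial] at h2
    have := hr.pos
    omega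
  have hPc : Nat.card P = r := by
    obtain ⟨k, hk⟩ := IsPGroup.iff_card.mp P.isPGroup'
    have h1 : Nat.card P ∣ r.factorial := by
      have h2 : Nat.card P ∣ Nat.card K := Subgroup.card_subgroup_dvd_card _
      have h3 : Nat.card K ∣ Nat.card (Perm S) := Subgroup.card_subgroup_dvd_card _
      have h5 : Nat.card (Perm S) = r.factorial := by
        rw [Nat.card_perm, show Nat.card S = r by rw [Nat.card_eq_fintype_card, hS]]
      rw [h5] at h3
      exact h2.trans h3
    have h4 : r ∣ Nat.card P := by
      have := Subgroup.card_dvd_of_le hP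
      rwa [Nat.card_zpowers, hor'] at this
    have hk1 : k = 1 := by
      have hk2 : k < 2 := by
        by_contra h
        exact hr2f (((pow_dvd_pow r (by omega : 2 ≤ k)).trans (hk ▸ dvd_rfl)).trans h1)
      rcases Nat.eq_zero_or_pos k with h0 | h0
      · rw [hk, h0, pow_zero, Nat.dvd_one] at h4
        exact absurd h4 hr.one_lt.ne'
      · omega
    rw [hk, hk1, pow_one]
  have hPz : (P : Subgroup K) = Subgroup.zpowers x' := by
    symm
    apply Subgroup.eq_of_le_of_card_ge hP
    rw [Nat.card_zpowers, hor']; exact hPc.le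
  set N : Subgroup K := Subgroup.normalizer ((P : Subgroup K) : Set K) with hN
  have hcent : ∀ n : K, n * x' = x' * n → n ∈ Subgroup.zpowers x' := by
    intro n hn
    have h1 : (n : Perm S) * x = x * n := congrArg Subtype.val hn
    have h2 := cent_cycle hx h1 (by intro a ha; rw [hsupp] at ha; exact absurd (Finset.mem_univ a) ha)
    obtain ⟨k, hk⟩ := Subgroup.mem_zpowers_iff.mp h2
    refine Subgroup.mem_zpowers_iff.mpr ⟨k, ?_⟩
    apply Subtype.ext
    simpa using hk
  have hnorm : ∀ n ∈ N, n * x' * n⁻¹ ∈ Subgroup.zpowers x' := by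
    intro n hn
    rw [hN, Subgroup.mem_normalizer_iff] at hn
    have := (hn x').mp (hP (Subgroup.mem_zpowers x'))
    rwa [hPz] at this
  have hxN : x' ∈ N := Subgroup.le_normalizer (hP (Subgroup.mem_zpowers x'))
  obtain ⟨f, hf1, hf2⟩ := card_normalizing (H := K) hr hor' N hxN hnorm (fun n _ h => hcent n h)
  refine ⟨f, hf2, ?_, card_sylow_modEq_one r K, ?_⟩
  · rw [P.card_eq_index_normalizer, ← hf1]
    exact (Subgroup.card_mul_index N).symm
  · intro hev hodd
    rw [← Nat.not_even_iff_odd]
    intro hfe
    have h2 : 2 ∣ Nat.card N := by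
      rw [hf1]; exact (even_iff_two_dvd.mp hfe).mul_left r
    haveI : Fact (Nat.Prime 2) := ⟨Nat.prime_two⟩
    obtain ⟨t, ht⟩ := exists_prime_orderOf_dvd_card' (G := N) 2 h2
    have ht2 : (t : K) ^ 2 = 1 := by
      have : t ^ 2 = 1 := by rw [← ht]; exact pow_orderOf_eq_one t
      exact congrArg Subtype.val this
    have ht1 : (t : K) ≠ 1 := by
      intro h
      have : t = 1 := Subtype.ext h
      rw [this, orderOf_one] at ht
      omega
    have hnc : (t : K) * x' ≠ x' * (t : K) := by
      intro h
      have h1 := hcent _ h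
      have h3 : orderOf (t : K) ∣ r := by
        have := Subgroup.orderOf_dvd_natCard _ h1
        rwa [Nat.card_zpowers, hor'] at this
      have h4 : orderOf (t : K) ∣ 2 := orderOf_dvd_of_pow_eq_one ht2
      rcases (Nat.dvd_prime Nat.prime_two).mp h4 with h5 | h5
      · exact ht1 (orderOf_eq_one_iff.mp h5)
      · rw [h5] at h3
        exact hr2 ((Nat.prime_dvd_prime_iff_eq Nat.prime_two hr).mp h3).symm
    have hinv := invert_of_norm hr hor' ht2 (hnorm t t.2) hnc
    have hs := sign_inverting (x := x) (t := ((t : K) : Perm S)) hx hr hr2 hxs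
      (congrArg Subtype.val ht2) (congrArg Subtype.val hinv)
      (by intro a ha; rw [hsupp] at ha; exact absurd (Finset.mem_univ a) ha)
    rw [hev _ (t : K).2, hodd.neg_one_pow] at hs
    exact absurd hs (by decide)

/-- double transpositions in four-transitive groups -/
theorem three_cycle_of_double (G : Subgroup (Perm α)) (h4 : IsMultiplyPretransitive G α 4) (h5 : 5 ≤ Fintype.card α)
    {u : Perm α} (hu : u ∈ G) (hu2 : u ^ 2 = 1) (hus : u.support.card = 4) : ∃ w ∈ G, IsThreeCycle w := by
  classical
  have huu : ∀ z, u (u z) = z := by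
    intro z
    rw [← Perm.mul_apply, ← sq, hu2]; rfl
  obtain ⟨a, ha⟩ : u.support.Nonempty := by rw [← Finset.card_pos, hus]; norm_num
  have hab : u a ≠ a := mem_support.mp ha
  have hb : u a ∈ u.support := by rw [mem_support, huu]; exact hab.symm
  obtain ⟨c, hc, hcab⟩ : ∃ c ∈ u.support, c ∉ ({a, u a} : Finset α) := by
    by_contra hcon
    push Not at hcon
    have := Finset.card_le_card (show u.support ⊆ ({a, u a} : Finset α) from hcon)
    rw [hus] at this
    have h2 := Finset.card_le_two (a := a) (b := u a)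
    omega
  rw [Finset.mem_insert, Finset.mem_singleton, not_or] at hcab
  have hcd : u c ≠ c := mem_support.mp hc
  have hd : u c ∈ u.support := by rw [mem_support, huu]; exact hcd.symm
  have hda : u c ≠ a := by
    intro h; apply hcab.2; rw [← h, huu]
  have hdb : u c ≠ u a := fun h => hcab.1 (u.injective h)
  have hsup : u.support = {a, u a, c, u c} := by
    symm
    apply Finset.eq_of_subset_of_card_le
    · intro z hz
      simp only [Finset.mem_insert, Finset.mem_singleton] at hz
      rcases hz with rfl | rfl | rfl | rfl <;> assumption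
    · rw [hus]
      rw [Finset.card_insert_of_notMem, Finset.card_insert_of_notMem, Finset.card_pair hcd.symm]
      · simp only [Finset.mem_insert, Finset.mem_singleton, not_or]
        exact ⟨fun h => hcab.2 h.symm, fun h => hdb h.symm⟩
      · simp only [Finset.mem_insert, Finset.mem_singleton, not_or]
        exact ⟨fun h => hab h.symm, fun h => hcab.1 h.symm, fun h => hda h.symm⟩
  obtain ⟨e, he⟩ : ∃ e, e ∉ u.support := by
    by_contra hcon
    push Not at hcon
    have : u.support = Finset.univ := Finset.eq_univ_iff_forall.mpr hcon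
    rw [this, Finset.card_univ] at hus
    omega
  have he' := he
  rw [hsup] at he'
  simp only [Finset.mem_insert, Finset.mem_singleton, not_or] at he'
  have hueq : u = swap a (u a) * swap c (u c) := by
    ext z
    by_cases hz : z ∈ u.support
    · rw [hsup] at hz
      simp only [Finset.mem_insert, Finset.mem_singleton] at hz
      rw [Perm.mul_apply]
      rcases hz with rfl | rfl | rfl | rfl
      · rw [swap_apply_of_ne_of_ne (Ne.symm hcab.1) (Ne.symm hda), swap_apply_left]
      · rw [swap_apply_of_ne_of_ne (Ne.symm hcab.2) (Ne.symm hdb), swap_apply_right, huu]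
      · rw [swap_apply_left, swap_apply_of_ne_of_ne hda hdb]
      · rw [swap_apply_right, swap_apply_of_ne_of_ne hcab.1 hcab.2, huu]
    · have h1 : u z = z := by rwa [mem_support, not_not] at hz
      rw [hsup] at hz
      simp only [Finset.mem_insert, Finset.mem_singleton, not_or] at hz
      rw [h1, Perm.mul_apply, swap_apply_of_ne_of_ne hz.2.2.1 hz.2.2.2, swap_apply_of_ne_of_ne hz.1 hz.2.1]
  rw [CfsgLib.PermBasic.mt_iff] at h4
  obtain ⟨⟨h, hhG⟩, hh⟩ := h4 ![a, u a, c, u c] ![a, u a, c, e] (by
    intro i j hij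
    fin_cases i <;> fin_cases j <;> simp at hij ⊢
    · exact hab hij.symm
    · exact hcab.1 hij.symm
    · exact hda hij.symm
    · exact hab hij
    · exact hcab.2 hij.symm
    · exact hcab.1 hij.symm
    · exact hcab.1 hij
    · exact hcab.2 hij
    · exact hcd hij.symm
    · exact hda hij
    · exact hcab.1 hij
    · exact hcd hij) (by
    intro i j hij
    fin_cases i <;> fin_cases j <;> simp at hij ⊢
    · exact hab hij.symm
    · exact hcab.1 hij.symm
    · exact he'.1 hij.symm
    · exact hab hij
    · exact hcab.2 hij.symm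
    · exact he'.2.1 hij.symm
    · exact hcab.1 hij
    · exact hcab.2 hij
    · exact he'.2.2.1 hij.symm
    · exact he'.1 hij
    · exact he'.2.1 hij
    · exact he'.2.2.1 hij)
  have h0 : h a = a := hh 0
  have h1 : h (u a) = u a := hh 1
  have h2 : h c = c := hh 2
  have h3 : h (u c) = e := hh 3
  refine ⟨u * (h * u * h⁻¹), G.mul_mem hu (G.mul_mem (G.mul_mem hhG hu) (G.inv_mem hhG)), ?_⟩
  have hw : h * u * h⁻¹ = swap a (u a) * swap c e := by
    have e1 : h * u * h⁻¹ = (h * swap a (u a) * h⁻¹) * (h * swap c (u c) * h⁻¹) := by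
      conv_lhs => rw [hueq]
      group
    rw [e1, ← swap_apply_apply, ← swap_apply_apply, h0, h1, h2, h3]
  have e2 : u * (h * u * h⁻¹) = swap c (u c) * swap c e := by
    rw [hw]
    have hgen : u * (swap a (u a) * swap c e) = (swap a (u a) * swap c (u c)) * (swap a (u a) * swap c e) :=
      congrArg (fun z => z * (swap a (u a) * swap c e)) hueq
    rw [hgen]
    have hdis : Commute (swap a (u a)) (swap c (u c)) := by
      apply Disjoint.commute
      rw [disjoint_iff_disjoint_support, support_swap hab.symm, support_swap hcd.symm]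
      rw [Finset.disjoint_left]
      intro z hz hz'
      simp only [Finset.mem_insert, Finset.mem_singleton] at hz hz'
      rcases hz with rfl | rfl <;> rcases hz' with h | h
      · exact hcab.1 h.symm
      · exact hda h.symm
      · exact hcab.2 h.symm
      · exact hdb h.symm
    rw [hdis.eq]
    have : swap c (u c) * swap a (u a) * (swap a (u a) * swap c e) =
        swap c (u c) * (swap a (u a) * swap a (u a)) * swap c e := by group
    rw [this, swap_mul_self, mul_one]
  rw [e2]
  exact isThreeCycle_swap_mul_swap_same hcd.symm (fun h => he'.2.2.1 h.symm) (fun h => he'.2.2.2 h.symm)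

end CfsgLib.H7PG
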