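import Mathlib
import Cfsg.Agent.LibH7PG2
import Cfsg.Agent.LibH14Prim

set_option autoImplicit false

namespace CfsgLib.H7PG

open Equiv Equiv.Perm MulAction

section A
variable {α : Type*} [Fintype α] [DecidableEq α]

/-- order of a multiply transitive group in terms of the pointwise stabiliser of the complement of `X` -/
theorem card_comap (G : Subgroup (Perm α)) (X : Finset α) (t : ℕ) (ht : Xᶜ.card = t)
    (hT : IsMultiplyPretransitive G α t) :
    Nat.card G = (Fintype.card α).descFactorial t *
      Nat.card (G.comap (Perm.ofSubtype : Perm {a // a ∈ X} →* Perm α)) := by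
  classical
  let e : Fin t ↪ α := (Xᶜ.equivFinOfCardEq ht).symm.toEmbedding.trans (Function.Embedding.subtype _)
  have heX : ∀ a, a ∉ X → ∃ i, e i = a := by
    intro a ha
    exact ⟨(Xᶜ.equivFinOfCardEq ht) ⟨a, Finset.mem_compl.mpr ha⟩, by simp [e]⟩
  have heX' : ∀ i, e i ∉ X := fun i => Finset.mem_compl.mp ((Xᶜ.equivFinOfCardEq ht).symm i).2
  have h1 : (stabilizer G e).index = Nat.card (Fin t ↪ α) :=
    @index_stabilizer_of_transitive G (Fin t ↪ α) _ _ e hT
  have h2 : Nat.card (Fin t ↪ α) = (Fintype.card α).descFactorial t := by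
    rw [Nat.card_eq_fintype_card, Fintype.card_embedding_eq, Fintype.card_fin]
  rw [← (stabilizer G e).card_mul_index, h1, h2, mul_comm]
  congr 1
  have hst : ∀ k : G.comap (Perm.ofSubtype : Perm {a // a ∈ X} →* Perm α),
      (⟨ofSubtype (k : Perm {a // a ∈ X}), k.2⟩ : G) ∈ stabilizer G e := by
    intro k
    rw [mem_stabilizer_iff]
    apply Function.Embedding.ext
    intro i
    show ofSubtype (k : Perm {a // a ∈ X}) (e i) = e i
    exact ofSubtype_apply_of_not_mem _ (heX' i)
  symm
  refine Nat.card_congr (Equiv.ofBijective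
    (fun k : G.comap (Perm.ofSubtype : Perm {a // a ∈ X} →* Perm α) =>
      (⟨⟨ofSubtype (k : Perm {a // a ∈ X}), k.2⟩, hst k⟩ : stabilizer G e)) ⟨?_, ?_⟩)
  · intro k k' hkk
    apply Subtype.ext
    have h3 := congrArg (fun z : stabilizer G e => ((z : G) : Perm α)) hkk
    exact ofSubtype_injective h3
  · rintro ⟨g, hg⟩
    have hfix : ∀ a, a ∉ X → (g : Perm α) a = a := by
      intro a ha
      obtain ⟨i, rfl⟩ := heX a ha
      rw [mem_stabilizer_iff] at hg
      exact congrArg (fun f : Fin t ↪ α => f i) hg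
    have hX : ∀ a, (g : Perm α) a ∈ X ↔ a ∈ X := by
      intro a
      constructor
      · intro h
        by_contra h'
        rw [hfix a h'] at h
        exact h' h
      · intro h
        by_contra h'
        have h4 := hfix _ h'
        have h5 := (g : Perm α).injective h4
        rw [h5] at h'
        exact h' h
    have hof : ofSubtype (subtypePerm (g : Perm α) hX) = (g : Perm α) := by
      apply ofSubtype_subtypePerm
      intro a ha
      by_contra h
      exact ha (hfix a h)
    refine ⟨⟨subtypePerm (g : Perm α) hX, ?_⟩, ?_⟩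
    · rw [Subgroup.mem_comap, hof]; exact g.2
    · apply Subtype.ext
      apply Subtype.ext
      exact hof

end A

/-- elements of prime order when Sylow subgroups have prime order -/
theorem card_order_prime {G : Type*} [Group G] [Finite G] {r : ℕ} [Fact r.Prime] (hr1 : r ∣ Nat.card G)
    (hr2 : ¬ r ^ 2 ∣ Nat.card G) :
    Nat.card {g : G // orderOf g = r} = (r - 1) * Nat.card (Sylow r G) := by
  classical
  have hr : r.Prime := Fact.out
  haveI := Fintype.ofFinite G
  have hPc : ∀ P : Sylow r G, Nat.card P = r := by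
    intro P
    obtain ⟨k, hk⟩ := IsPGroup.iff_card.mp P.isPGroup'
    have h1 : Nat.card P ∣ Nat.card G := Subgroup.card_subgroup_dvd_card _
    have hk2 : k < 2 := by
      by_contra h
      exact hr2 (((pow_dvd_pow r (by omega : 2 ≤ k)).trans (hk ▸ dvd_rfl)).trans h1)
    have h4 : r ∣ Nat.card P := P.dvd_card_of_dvd_card hr1
    have hk1 : k ≠ 0 := by
      rintro rfl
      rw [hk, pow_zero, Nat.dvd_one] at h4
      exact absurd h4 hr.one_lt.ne'
    have : k = 1 := by omega
    rw [hk, this, pow_one]
  have hzp : ∀ g : {g : G // orderOf g = r}, IsPGroup r (Subgroup.zpowers (g : G)) := by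
    intro g
    exact IsPGroup.of_card (n := 1) (by rw [Nat.card_zpowers, g.2, pow_one])
  have hex : ∀ g : {g : G // orderOf g = r}, ∃ P : Sylow r G, (g : G) ∈ P := by
    intro g
    obtain ⟨P, hP⟩ := (hzp g).exists_le_sylow
    exact ⟨P, hP (Subgroup.mem_zpowers _)⟩
  choose F hF using hex
  have huniq : ∀ (g : {g : G // orderOf g = r}) (P : Sylow r G), (g : G) ∈ P → F g = P := by
    have h1 : ∀ (g : {g : G // orderOf g = r}) (P : Sylow r G), (g : G) ∈ P →
        (P : Subgroup G) = Subgroup.zpowers (g : G) := by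
      intro g P hP
      symm
      apply Subgroup.eq_of_le_of_card_ge
      · rw [Subgroup.zpowers_le]; exact hP
      · rw [Nat.card_zpowers, g.2]; exact (hPc P).le
    intro g P hP
    apply Sylow.ext
    rw [h1 g P hP, h1 g (F g) (hF g)]
  have horder : ∀ s : (Σ P : Sylow r G, {g : (P : Subgroup G) // g ≠ 1}),
      orderOf ((s.2 : (s.1 : Subgroup G)) : G) = r := by
    rintro ⟨P, g, hg⟩
    have h2 : orderOf g ∣ Nat.card P := orderOf_dvd_natCard g
    rw [hPc P] at h2
    rcases (Nat.dvd_prime hr).mp h2 with h3 | h3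
    · exact absurd (orderOf_eq_one_iff.mp h3) hg
    · show orderOf (g : G) = r
      rw [Subgroup.orderOf_coe]; exact h3
  have hequiv : (Σ P : Sylow r G, {g : (P : Subgroup G) // g ≠ 1}) ≃ {g : G // orderOf g = r} := by
    refine Equiv.ofBijective (fun s => ⟨((s.2 : (s.1 : Subgroup G)) : G), horder s⟩) ⟨?_, ?_⟩
    · rintro ⟨P, g, hg⟩ ⟨P', g', hg'⟩ h
      have h1 : (g : G) = (g' : G) := congrArg Subtype.val h
      have h2 := huniq ⟨(g : G), horder ⟨P, g, hg⟩⟩ P g.2
      have h3 := huniq ⟨(g : G), horder ⟨P, g, hg⟩⟩ P' (by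
        show (g : G) ∈ P'
        rw [h1]; exact g'.2)
      have h4 : P = P' := h2.symm.trans h3
      subst h4
      have h5 : g = g' := Subtype.ext h1
      subst h5
      rfl
    · rintro ⟨g, hg⟩
      refine ⟨⟨F ⟨g, hg⟩, ⟨⟨g, hF ⟨g, hg⟩⟩, ?_⟩⟩, rfl⟩
      intro h
      have h2 : g = 1 := congrArg Subtype.val h
      rw [h2, orderOf_one] at hg
      exact hr.one_lt.ne hg
  rw [← Nat.card_congr hequiv, Nat.card_sigma]
  have h3 : ∀ P : Sylow r G, Nat.card {g : (P : Subgroup G) // g ≠ 1} = r - 1 := by
    intro P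
    have h4 : Nat.card {g : (P : Subgroup G) // g ≠ 1} = Nat.card (P : Subgroup G) - 1 := by
      rw [Nat.card_eq_fintype_card, Nat.card_eq_fintype_card]
      have := Fintype.card_subtype_compl (fun g : (P : Subgroup G) => g = 1)
      rw [Fintype.card_subtype_eq] at this
      exact this
    rw [h4, hPc P]
  rw [Finset.sum_congr rfl (fun P _ => h3 P), Finset.sum_const, Finset.card_univ, smul_eq_mul, mul_comm,
    Nat.card_eq_fintype_card]

/-- free conjugation action on elements of a given order -/
theorem dvd_card_order {G : Type*} [Group G] [Finite G] {x : G} {p : ℕ} (hp : p.Prime) (hx : orderOf x = p)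
    (d : ℕ) (hno : ∀ g : G, orderOf g = d → x * g ≠ g * x) : p ∣ Nat.card {g : G // orderOf g = d} := by
  classical
  haveI := Fintype.ofFinite G
  haveI := Fact.mk hp
  let f : Perm {g : G // orderOf g = d} := Perm.subtypePerm (MulAut.conj x).toEquiv (by
    intro g
    show orderOf (MulAut.conj x g) = d ↔ orderOf g = d
    rw [MulEquiv.orderOf_eq])
  have hfapp : ∀ (g : {g : G // orderOf g = d}), ((f g : {g : G // orderOf g = d}) : G) = x * g * x⁻¹ := fun g => rfl
  have hfpow : ∀ (n : ℕ) (g : {g : G // orderOf g = d}), (((f ^ n) g : {g : G // orderOf g = d}) : G) = x ^ n * g * (x ^ n)⁻¹ := by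
    intro n
    induction n with
    | zero => intro g; simp
    | succ n ih =>
      intro g
      rw [pow_succ', Perm.mul_apply, hfapp, ih, pow_succ']
      group
  have hf : f ^ p ^ 1 = 1 := by
    rw [pow_one]
    ext g
    rw [hfpow, ← hx, pow_orderOf_eq_one]
    simp
  have h1 := card_compl_support_modEq hf
  have h2 : f.supportᶜ = ∅ := by
    rw [Finset.eq_empty_iff_forall_notMem]
    intro g hg
    rw [Finset.mem_compl, mem_support, not_not] at hg
    have h3 := congrArg Subtype.val hg
    rw [hfapp] at h3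
    exact hno g g.2 (mul_inv_eq_iff_eq_mul.mp h3)
  rw [h2, Finset.card_empty] at h1
  rw [Nat.card_eq_fintype_card]
  exact (Nat.modEq_zero_iff_dvd).mp h1.symm

/-- counting Sylow subgroups of prime order with small centraliser -/
theorem sylow_count' {G : Type*} [Group G] [Finite G] {r : ℕ} [Fact r.Prime] {x : G} (hx : orderOf x = r)
    (hr2 : ¬ r ^ 2 ∣ Nat.card G) (hC : ∀ g : G, g * x = x * g → g ∈ Subgroup.zpowers x) :
    ∃ f, f ∣ r - 1 ∧ Nat.card G = r * f * Nat.card (Sylow r G) ∧ Nat.card (Sylow r G) ≡ 1 [MOD r] := by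
  classical
  have hr : r.Prime := Fact.out
  have hz : IsPGroup r (Subgroup.zpowers x) :=
    IsPGroup.of_card (n := 1) (by rw [Nat.card_zpowers, hx, pow_one])
  obtain ⟨P, hP⟩ := hz.exists_le_sylow
  have hPc : Nat.card P = r := by
    obtain ⟨k, hk⟩ := IsPGroup.iff_card.mp P.isPGroup'
    have h1 : Nat.card P ∣ Nat.card G := Subgroup.card_subgroup_dvd_card _
    have hk2 : k < 2 := by
      by_contra h
      exact hr2 (((pow_dvd_pow r (by omega : 2 ≤ k)).trans (hk ▸ dvd_rfl)).trans h1)
    have h4 : r ∣ Nat.card P := by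
      have := Subgroup.card_dvd_of_le hP
      rwa [Nat.card_zpowers, hx] at this
    have hk1 : k ≠ 0 := by
      rintro rfl
      rw [hk, pow_zero, Nat.dvd_one] at h4
      exact absurd h4 hr.one_lt.ne'
    have : k = 1 := by omega
    rw [hk, this, pow_one]
  have hPz : (P : Subgroup G) = Subgroup.zpowers x := by
    symm
    apply Subgroup.eq_of_le_of_card_ge hP
    rw [Nat.card_zpowers, hx]; exact hPc.le
  set N : Subgroup G := Subgroup.normalizer ((P : Subgroup G) : Set G) with hN
  have hnorm : ∀ n ∈ N, n * x * n⁻¹ ∈ Subgroup.zpowers x := by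
    intro n hn
    rw [hN, Subgroup.mem_normalizer_iff] at hn
    have := (hn x).mp (hP (Subgroup.mem_zpowers x))
    rwa [hPz] at this
  have hxN : x ∈ N := Subgroup.le_normalizer (hP (Subgroup.mem_zpowers x))
  obtain ⟨f, hf1, hf2⟩ := card_normalizing (H := G) hr hx N hxN hnorm (fun n _ h => hC n h)
  refine ⟨f, hf2, ?_, card_sylow_modEq_one r G⟩
  rw [P.card_eq_index_normalizer, ← hf1]
  exact (Subgroup.card_mul_index N).symm

/-- solvable transitive groups of prime degree have a unique Sylow subgroup for the degree -/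
theorem sylow_one {S : Type*} [Fintype S] [DecidableEq S] {r : ℕ} [Fact r.Prime] (hS : Fintype.card S = r)
    (K : Subgroup (Perm S)) [hT : IsPretransitive K S] (hsol : IsSolvable K) : Nat.card (Sylow r K) = 1 := by
  classical
  have hr : r.Prime := Fact.out
  haveI : Nonempty S := by
    rw [← Fintype.card_pos_iff, hS]; exact hr.pos
  have hprim : IsPreprimitive K S := by
    apply IsPreprimitive.of_prime_card
    rw [Nat.card_eq_fintype_card, hS]; exact hr
  -- a nontrivial abelian normal subgroup
  obtain ⟨A, hAn, hA1, hAc⟩ : ∃ A : Subgroup K, A.Normal ∧ A ≠ ⊥ ∧ ∀ a ∈ A, ∀ b ∈ A, a * b = b * a := by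
    obtain ⟨n, hn⟩ := hsol.solvable
    have hK : derivedSeries K 0 ≠ ⊥ := by
      rw [derivedSeries_zero]
      intro h
      have h1 : ∀ g : K, g = 1 := by
        intro g
        have : g ∈ (⊤ : Subgroup K) := Subgroup.mem_top g
        rwa [h, Subgroup.mem_bot] at this
      obtain ⟨a, b, hab⟩ : ∃ a b : S, a ≠ b := by
        have : 1 < Fintype.card S := by rw [hS]; exact hr.one_lt
        exact Fintype.one_lt_card_iff.mp this
      obtain ⟨g, hg⟩ := hT.exists_smul_eq a b
      rw [h1 g, one_smul] at hg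
      exact hab hg
    have hex : ∃ n, derivedSeries K n = ⊥ := ⟨n, hn⟩
    have h0 : Nat.find hex ≠ 0 := by
      intro h
      exact hK (h ▸ Nat.find_spec hex)
    obtain ⟨m, hm⟩ : ∃ m, Nat.find hex = m + 1 := ⟨Nat.find hex - 1, by omega⟩
    refine ⟨derivedSeries K m, derivedSeries_normal K m, Nat.find_min hex (by omega), ?_⟩
    have h1 := Nat.find_spec hex
    rw [hm, derivedSeries_succ, Subgroup.commutator_eq_bot_iff_le_centralizer] at h1
    intro a ha b hb
    exact ((Subgroup.mem_centralizer_iff.mp (h1 ha)) b hb).symm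
  haveI := hAn
  haveI hAt : IsPretransitive A S := CfsgLib.H14Prim.normal_transitive hprim A hA1
  obtain ⟨s0⟩ : Nonempty S := inferInstance
  have hdA : r ∣ Nat.card A := by
    have h1 : (stabilizer A s0).index = r := by
      rw [index_stabilizer_of_transitive, Nat.card_eq_fintype_card, hS]
    rw [← h1]; exact Subgroup.index_dvd_card _
  obtain ⟨z, hz⟩ := exists_prime_orderOf_dvd_card' (G := A) r hdA
  have hzo : orderOf ((z : K) : Perm S) = r := by
    rw [Subgroup.orderOf_coe, Subgroup.orderOf_coe]; exact hz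
  have hzc : ((z : K) : Perm S).IsCycle := isCycle_of_prime_order' (by rw [hzo]; exact hr) (by
    rw [hzo, hS]; have := hr.pos; omega)
  have hzs : ((z : K) : Perm S).support.card = r := by rw [← hzc.orderOf, hzo]
  have hsupp : ((z : K) : Perm S).support = Finset.univ := by
    rw [← Finset.card_eq_iff_eq_univ, hzs, hS]
  have hAz : ∀ a ∈ A, (a : K) ∈ Subgroup.zpowers (z : K) := by
    intro a ha
    have h1 : ((a : K) : Perm S) * ((z : K) : Perm S) = ((z : K) : Perm S) * ((a : K) : Perm S) :=
      congrArg Subtype.val (hAc a ha z z.2)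
    have h2 := cent_cycle hzc h1 (by intro b hb; rw [hsupp] at hb; exact absurd (Finset.mem_univ b) hb)
    obtain ⟨k, hk⟩ := Subgroup.mem_zpowers_iff.mp h2
    refine Subgroup.mem_zpowers_iff.mpr ⟨k, ?_⟩
    apply Subtype.ext
    simpa using hk
  have hAeq : A = Subgroup.zpowers (z : K) := by
    apply le_antisymm
    · exact fun a ha => hAz a ha
    · rw [Subgroup.zpowers_le]; exact z.2
  have hAr : Nat.card A = r := by
    rw [hAeq, Nat.card_zpowers, Subgroup.orderOf_coe]; exact hz
  have hr2 : ¬ r ^ 2 ∣ Nat.card K := by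
    intro h
    have h3 : Nat.card K ∣ Nat.card (Perm S) := Subgroup.card_subgroup_dvd_card _
    have h5 : Nat.card (Perm S) = r.factorial := by
      rw [Nat.card_perm, show Nat.card S = r by rw [Nat.card_eq_fintype_card, hS]]
    rw [h5] at h3
    have h6 := h.trans h3
    obtain ⟨m, hm⟩ : ∃ m, r = m + 1 := ⟨r - 1, by have := hr.pos; omega⟩
    have h1 : r.factorial = r * (r - 1).factorial := by
      rw [hm, Nat.factorial_succ, Nat.add_sub_cancel]
    rw [h1, sq] at h6
    have h2 := Nat.dvd_of_mul_dvd_mul_left hr.pos h6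
    rw [hr.dvd_factorial] at h2
    have := hr.pos
    omega
  have hAp : IsPGroup r A := IsPGroup.of_card (n := 1) (by rw [hAr, pow_one])
  obtain ⟨P, hP⟩ := hAp.exists_le_sylow
  have hPA : (P : Subgroup K) = A := by
    symm
    apply Subgroup.eq_of_le_of_card_ge hP
    rw [hAr]
    obtain ⟨k, hk⟩ := IsPGroup.iff_card.mp P.isPGroup'
    have h1 : Nat.card P ∣ Nat.card K := Subgroup.card_subgroup_dvd_card _
    have hk2 : k < 2 := by
      by_contra h
      exact hr2 (((pow_dvd_pow r (by omega : 2 ≤ k)).trans (hk ▸ dvd_rfl)).trans h1)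
    rw [hk]
    calc r ^ k ≤ r ^ 1 := Nat.pow_le_pow_right hr.pos (by omega)
      _ = r := pow_one r
  have hPn : (P : Subgroup K).Normal := by rw [hPA]; exact hAn
  haveI := Sylow.unique_of_normal P hPn
  exact Nat.card_unique

end CfsgLib.H7PG
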