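import Cfsg.Statements.S0991
import Mathlib

-- import your own Cfsg.Agent.* helpers here

set_option autoImplicit false
open Cfsg

namespace Cfsg.Agent.S0991

open Equiv.Perm

/-- Embedding Theorem: if a non-abelian finite simple group has a proper subgroup of index n, then it is isomorphic to a subgroup of the alternating group of degree n. -/
theorem result {G : Type*} [Group G] [Finite G] [IsSimpleGroup G] (hG : ¬ IsMulCommutative G) (H : Subgroup G) (hH : H ≠ ⊤) : ∃ f : G →* ↥(alternatingGroup (Fin H.index)), Function.Injective f := by
  classical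
  let e : (G ⧸ H) ≃ Fin H.index := Finite.equivFinOfCardEq rfl
  let φ : G →* Equiv.Perm (G ⧸ H) := MulAction.toPermHom G (G ⧸ H)
  let ψ : Equiv.Perm (G ⧸ H) ≃* Equiv.Perm (Fin H.index) := e.permCongrHom
  let f : G →* Equiv.Perm (Fin H.index) := ψ.toMonoidHom.comp φ
  have hfinj : Function.Injective f := by
    have h1 : Function.Injective φ := by
      rw [← MonoidHom.ker_eq_bot_iff]
      rcases (inferInstance : φ.ker.Normal).eq_bot_or_eq_top with h | h
      · exact h
      · exfalso
        apply hH
        rw [eq_top_iff, ← h]
        have h2 : φ.ker = H.normalCore := (Subgroup.normalCore_eq_ker H).symm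
        rw [h2]
        exact H.normalCore_le
    exact ψ.injective.comp h1
  have hsign : ∀ g : G, sign (f g) = 1 := by
    let s : G →* ℤˣ := (sign : Equiv.Perm (Fin H.index) →* ℤˣ).comp f
    rcases (inferInstance : s.ker.Normal).eq_bot_or_eq_top with h | h
    · exfalso
      apply hG
      have h3 : Function.Injective s := (MonoidHom.ker_eq_bot_iff s).mp h
      refine ⟨⟨fun a b => h3 ?_⟩⟩
      rw [map_mul, map_mul, mul_comm]
    · intro g
      have : g ∈ s.ker := by rw [h]; trivial
      exact this
  refine ⟨f.codRestrict _ (fun g => mem_alternatingGroup.mpr (hsign g)), ?_⟩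
  intro a b hab
  exact hfinj (congrArg Subtype.val hab)

end Cfsg.Agent.S0991
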