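import Mathlib
import Cfsg.Agent.LibH7PG3
import Cfsg.Agent.LibDkB29
import Cfsg.Agent.S0991
import Cfsg.Agent.S0494

set_option autoImplicit false

namespace CfsgLib.H7PG

open Equiv Equiv.Perm MulAction

section A
variable {α : Type*} [Fintype α] [DecidableEq α]

theorem dvd_card_of_free {p : ℕ} (hp : p.Prime) {t : Perm α} (ht : t ^ p = 1) (X : Finset α)
    (hX : ∀ a ∈ X, t a ∈ X) (hfree : ∀ a ∈ X, t a ≠ a) : p ∣ X.card := by
  classical
  haveI := Fact.mk hp
  have hpow : ∀ (n : ℕ) (a : α), a ∈ X → (t ^ n) a ∈ X := by
    intro n
    induction n with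
    | zero => intro a ha; simpa using ha
    | succ n ih => intro a ha; rw [pow_succ', Perm.mul_apply]; exact hX _ (ih a ha)
  have hiff : ∀ a, t a ∈ X ↔ a ∈ X := by
    intro a
    refine ⟨fun h => ?_, hX a⟩
    have h1 := hpow (p - 1) _ h
    rw [← Perm.mul_apply, ← pow_succ, Nat.sub_add_cancel hp.one_lt.le, ht] at h1
    exact h1
  let f : Perm {a // a ∈ X} := t.subtypePerm hiff
  have hf : f ^ p ^ 1 = 1 := by
    rw [pow_one]
    show (t.subtypePerm hiff) ^ p = 1
    rw [subtypePerm_pow]
    ext a
    simp [ht]
  have h1 := card_compl_support_modEq hf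
  have h2 : f.supportᶜ = ∅ := by
    rw [Finset.eq_empty_iff_forall_notMem]
    intro a ha
    rw [Finset.mem_compl, mem_support, not_not] at ha
    exact hfree a a.2 (congrArg Subtype.val ha)
  rw [h2, Finset.card_empty, Fintype.card_coe] at h1
  exact (Nat.modEq_zero_iff_dvd).mp h1.symm

theorem sign_inv {t : Perm α} (ht : t ^ 2 = 1) : sign t = (-1) ^ (t.support.card / 2) := by
  rw [sign_of_pow_two_eq_one ht, card_fixedPoints, sum_cycleType]
  congr 2
  have := Finset.card_le_univ t.support
  omega

theorem even_invol {t : Perm α} (ht : t ^ 2 = 1) (hs : sign t = 1) : 4 ∣ t.support.card := by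
  have h1 := two_dvd_card_support ht
  rw [sign_inv ht] at hs
  have h2 : Even (t.support.card / 2) := by
    by_contra h
    rw [Nat.not_even_iff_odd] at h
    rw [h.neg_one_pow] at hs
    exact absurd hs (by decide)
  obtain ⟨k, hk⟩ := h2
  obtain ⟨j, hj⟩ := h1
  omega

theorem supp_comm {t z : Perm α} (h : t * z = z * t) {a : α} (ha : a ∈ z.support) : t a ∈ z.support := by
  rw [mem_support] at ha ⊢
  rw [← Perm.mul_apply, ← h, Perm.mul_apply]
  exact fun h => ha (t.injective h)

theorem no_commute_six (hα : Fintype.card α = 6) {t z : Perm α} (ht : orderOf t = 2) (hz : orderOf z = 3)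
    (hs : sign t = 1) (hc : t * z = z * t) : False := by
  have ht2 : t ^ 2 = 1 := by rw [← ht]; exact pow_orderOf_eq_one t
  have hz3 : z ^ 3 = 1 := by rw [← hz]; exact pow_orderOf_eq_one z
  have h4 := even_invol ht2 hs
  have ht1 : t ≠ 1 := by rintro rfl; rw [orderOf_one] at ht; omega
  have hz1 : z ≠ 1 := by rintro rfl; rw [orderOf_one] at hz; omega
  have h5 : t.support.card ≤ 6 := by rw [← hα]; exact Finset.card_le_univ _
  have h6 : 0 < t.support.card := by
    rw [Finset.card_pos]
    rw [Finset.nonempty_iff_ne_empty, Ne, support_eq_empty_iff]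
    exact ht1
  have h7 : t.support.card = 4 := by omega
  have hsub : z.support ⊆ t.support := by
    intro a ha
    by_contra hat
    have h8 : (Finset.range 3).card ≤ (t.supportᶜ).card := by
      apply Finset.card_le_card_of_injOn (fun i => (z ^ i) a)
      · intro i _
        show (z ^ i) a ∈ ((t.supportᶜ : Finset α) : Set α)
        rw [Finset.mem_coe, Finset.mem_compl]
        intro h9
        have hc' : z ^ i * t = t * z ^ i := by
          have : Commute t z := hc
          exact (this.pow_right i).eq.symm
        rw [mem_support, not_not] at hat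
        rw [mem_support, ← Perm.mul_apply, ← hc', Perm.mul_apply, hat] at h9
        exact h9 rfl
      · intro i hi j hj hij
        rw [Finset.coe_range, Set.mem_Iio] at hi hj
        exact orbit_inj Nat.prime_three hz ha hi hj hij
    rw [Finset.card_range, Finset.card_compl, hα, h7] at h8
    omega
  have h2 : 2 ∣ z.support.card := by
    apply dvd_card_of_free Nat.prime_two ht2
    · intro a ha; exact supp_comm hc ha
    · intro a ha; exact mem_support.mp (hsub ha)
  have h3 : 3 ∣ z.support.card := by
    apply dvd_card_of_free Nat.prime_three hz3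
    · intro a ha; exact supp_comm rfl ha
    · intro a ha; exact mem_support.mp ha
  have h8 := Finset.card_le_card hsub
  have h9 : 0 < z.support.card := by
    rw [Finset.card_pos]
    rw [Finset.nonempty_iff_ne_empty, Ne, support_eq_empty_iff]
    exact hz1
  omega

/-- centraliser of a long cycle fixing at most one point -/
theorem cent_cycle_one {x c : Perm α} (hx : x.IsCycle) (hc : c * x = x * c)
    (h1 : Fintype.card α ≤ x.support.card + 1) : c ∈ Subgroup.zpowers x := by
  apply cent_cycle hx hc
  intro a ha
  by_contra hca
  have hca' : c a ∉ x.support := by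
    intro h
    rw [mem_support, not_not] at ha
    rw [mem_support, ← Perm.mul_apply, ← hc, Perm.mul_apply, ha] at h
    exact h rfl
  have h2 : ({a, c a} : Finset α) ⊆ x.supportᶜ := by
    intro z hz
    rw [Finset.mem_insert, Finset.mem_singleton] at hz
    rw [Finset.mem_compl]
    rcases hz with rfl | rfl <;> assumption
  have h3 := Finset.card_le_card h2
  rw [Finset.card_pair (fun h => hca h.symm), Finset.card_compl] at h3
  omega

/-- a proper subgroup of small index in an alternating group -/
theorem index_alt (h5 : 5 ≤ Fintype.card α) (G : Subgroup (Perm α)) (hG : G ≤ alternatingGroup α)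
    (hne : G ≠ alternatingGroup α) : Fintype.card α ≤
      (G.subgroupOf (alternatingGroup α)).index := by
  classical
  haveI : IsSimpleGroup (alternatingGroup α) :=
    alternatingGroup.isSimpleGroup (by rw [Nat.card_eq_fintype_card]; exact h5)
  haveI : Nontrivial α := Fintype.one_lt_card_iff_nontrivial.mp (by omega)
  have hnc : ¬ IsMulCommutative (alternatingGroup α) := by
    intro h
    have h1 : IsCyclic (alternatingGroup α) := by
      haveI := h
      letI : CommGroup (alternatingGroup α) := { (inferInstance : Group (alternatingGroup α)) with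
        mul_comm := fun a b => h.is_comm.comm a b }
      exact IsSimpleGroup.isCyclic
    have h2 : (Nat.card (alternatingGroup α)).Prime := by
      letI : CommGroup (alternatingGroup α) := { (inferInstance : Group (alternatingGroup α)) with
        mul_comm := fun a b => h.is_comm.comm a b }
      exact IsSimpleGroup.prime_card
    have h3 := two_mul_nat_card_alternatingGroup (α := α)
    rw [Nat.card_perm, Nat.card_eq_fintype_card (α := α)] at h3
    have h4 : 24 ∣ (Fintype.card α).factorial := Nat.factorial_dvd_factorial (show 4 ≤ _ by omega)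
    obtain ⟨k, hk⟩ := h4
    rw [hk] at h3
    have h5 : Nat.card (alternatingGroup α) = 2 * (6 * k) := by omega
    rw [h5] at h2
    have h6 := (Nat.prime_mul_iff.mp h2)
    rcases h6 with h6 | h6
    · omega
    · omega
  have hH : G.subgroupOf (alternatingGroup α) ≠ ⊤ := by
    intro h
    rw [Subgroup.subgroupOf_eq_top] at h
    exact hne (le_antisymm hG h)
  obtain ⟨f, hf⟩ := Cfsg.Agent.S0991.result hnc (G.subgroupOf (alternatingGroup α)) hH
  have h1 := Nat.card_le_card_of_injective f hf
  have hk1 : (G.subgroupOf (alternatingGroup α)).index ≠ 0 := Subgroup.index_ne_zero_of_finite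
  have hk1'' : (G.subgroupOf (alternatingGroup α)).index ≠ 1 := by
    rw [Ne, Subgroup.index_eq_one]; exact hH
  clear hf f
  generalize hk : (G.subgroupOf (alternatingGroup α)).index = k at h1 hk1 hk1'' ⊢
  by_contra hlt
  push Not at hlt
  have h2 := two_mul_nat_card_alternatingGroup (α := α)
  rw [Nat.card_perm, Nat.card_eq_fintype_card (α := α)] at h2
  rcases Nat.lt_or_ge k 2 with hk2 | hk2
  · omega
  · haveI : Nontrivial (Fin k) := Fin.nontrivial_iff_two_le.mpr hk2
    have h3 := two_mul_nat_card_alternatingGroup (α := Fin k)
    rw [Nat.card_perm, Nat.card_eq_fintype_card (α := Fin k), Fintype.card_fin] at h3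
    have h4 : k.factorial < (Fintype.card α).factorial := Nat.factorial_lt_of_lt (by omega) hlt
    omega

end A

end CfsgLib.H7PG
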