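import Mathlib
import Cfsg.Agent.LibH7PG4

set_option autoImplicit false

namespace CfsgLib.H7PG

open Equiv Equiv.Perm MulAction

section A
variable {α : Type*} [Fintype α] [DecidableEq α]

theorem mt_of_cycle (G : Subgroup (Perm α)) (hG : IsPreprimitive G α) {g : Perm α} (hg : g ∈ G) (hgc : g.IsCycle)
    (hp : g.support.card.Prime) (n : ℕ) (hn : Fintype.card α = g.support.card + n + 1) :
    IsMultiplyPretransitive G α (n + 2) := by
  classical
  set s : Set α := ((g.support : Set α))ᶜ with hs
  have hsc : s.ncard = n + 1 := by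
    have h1 := Set.ncard_add_ncard_compl (g.support : Set α)
    rw [Set.ncard_coe_finset, Nat.card_eq_fintype_card, hn] at h1
    have h2 : s.ncard = (g.support : Set α)ᶜ.ncard := rfl
    omega
  rcases Nat.lt_or_ge (n + 2) (Fintype.card α) with h2 | h2
  · have htr := Equiv.Perm.isPretransitive_of_isCycle_mem hgc hg
    have hprim : MulAction.IsPreprimitive (fixingSubgroup G s) (SubMulAction.ofFixingSubgroup G s) := by
      apply MulAction.IsPreprimitive.of_prime_card
      have h1 : Nat.card (SubMulAction.ofFixingSubgroup G s) = g.support.card := by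
        rw [Nat.card_eq_fintype_card, Fintype.card_subtype]
        apply congr_arg
        ext x
        simp [SubMulAction.mem_ofFixingSubgroup_iff, hs]
      rw [h1]; exact hp
    have hmp := hG.isMultiplyPreprimitive (s := s) (n := n) hsc
      (by rw [Nat.card_eq_fintype_card]; exact h2) hprim
    exact hmp.isMultiplyPretransitive
  · exfalso
    have := hp.two_le
    have h3 := hgc.two_le_card_support
    omega

theorem mt_dvd (G : Subgroup (Perm α)) (t : ℕ) (ht : t ≤ Fintype.card α) (hT : IsMultiplyPretransitive G α t) :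
    (Fintype.card α).descFactorial t ∣ Nat.card G := by
  classical
  obtain ⟨X, _, hX⟩ := Finset.exists_subset_card_eq (s := (Finset.univ : Finset α)) (n := Fintype.card α - t)
    (by rw [Finset.card_univ]; omega)
  rw [card_comap G X t (by rw [Finset.card_compl, hX]; omega) hT]
  exact Dvd.intro _ rfl

theorem alt_card_dvd (h2 : 2 ≤ Fintype.card α) (G : Subgroup (Perm α)) (hG : G ≤ alternatingGroup α) :
    2 * Nat.card G ∣ (Fintype.card α).factorial := by
  haveI : Nontrivial α := Fintype.one_lt_card_iff_nontrivial.mp (by omega)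
  have h3 := two_mul_nat_card_alternatingGroup (α := α)
  rw [Nat.card_perm, Nat.card_eq_fintype_card (α := α)] at h3
  rw [← h3]
  exact Nat.mul_dvd_mul_left 2 (Subgroup.card_dvd_of_le hG)

theorem alt_eq (h2 : 2 ≤ Fintype.card α) (G : Subgroup (Perm α)) (hG : G ≤ alternatingGroup α)
    (h : 2 * Nat.card G = (Fintype.card α).factorial) : G = alternatingGroup α := by
  haveI : Nontrivial α := Fintype.one_lt_card_iff_nontrivial.mp (by omega)
  have h3 := two_mul_nat_card_alternatingGroup (α := α)
  rw [Nat.card_perm, Nat.card_eq_fintype_card (α := α)] at h3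
  apply Subgroup.eq_of_le_of_card_ge hG
  omega

theorem alt_index (h5 : 5 ≤ Fintype.card α) (G : Subgroup (Perm α)) (hG : G ≤ alternatingGroup α)
    (hne : G ≠ alternatingGroup α) : ∃ k, Fintype.card α ≤ k ∧ 2 * Nat.card G * k = (Fintype.card α).factorial := by
  haveI : Nontrivial α := Fintype.one_lt_card_iff_nontrivial.mp (by omega)
  have h3 := two_mul_nat_card_alternatingGroup (α := α)
  rw [Nat.card_perm, Nat.card_eq_fintype_card (α := α)] at h3
  refine ⟨(G.subgroupOf (alternatingGroup α)).index, index_alt h5 G hG hne, ?_⟩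
  have h1 := Subgroup.card_mul_index (G.subgroupOf (alternatingGroup α))
  rw [Nat.card_congr (Subgroup.subgroupOfEquivOfLe hG).toEquiv] at h1
  rw [mul_assoc, h1, h3]

theorem alt7 (hα : Fintype.card α = 7) (G : Subgroup (Perm α)) (hG : G ≤ alternatingGroup α) {x y : Perm α}
    (hx : x ∈ G) (hy : y ∈ G) (hxo : orderOf x = 5) (hyo : orderOf y = 7) : G = alternatingGroup α := by
  classical
  haveI : Fact (Nat.Prime 7) := ⟨by norm_num⟩
  have hxc : x.IsCycle := isCycle_of_prime_order' (by rw [hxo]; norm_num) (by rw [hxo, hα]; norm_num)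
  have hyc : y.IsCycle := isCycle_of_prime_order' (by rw [hyo]; norm_num) (by rw [hyo, hα]; norm_num)
  have hxs : x.support.card = 5 := by rw [← hxc.orderOf, hxo]
  have hys : y.support.card = 7 := by rw [← hyc.orderOf, hyo]
  have hyu : y.support = Finset.univ := by
    rw [← Finset.card_eq_iff_eq_univ, hys, hα]
  haveI : IsPretransitive G α := trans_of G hx hy (by norm_num : Nat.Prime 5) (by norm_num : 5 < 7) hxo hyc hys
    (by rw [hα]; norm_num) (fun a => Or.inr (by rw [hyu]; exact Finset.mem_univ a))
  have hprim : IsPreprimitive G α :=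
    IsPreprimitive.of_prime_card (by rw [Nat.card_eq_fintype_card, hα]; norm_num)
  have h3 : IsMultiplyPretransitive G α 3 := mt_of_cycle G hprim hx hxc (by rw [hxs]; norm_num) 1
    (by rw [hα, hxs])
  have h1 : 210 ∣ Nat.card G := by
    have := mt_dvd G 3 (by rw [hα]; norm_num) h3
    rw [hα] at this
    exact this
  have h2 : Nat.card G ∣ 2520 := by
    have := alt_card_dvd (by rw [hα]; norm_num) G hG
    rw [hα, show (7 : ℕ).factorial = 2 * 2520 by decide] at this
    exact Nat.dvd_of_mul_dvd_mul_left (by norm_num) this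
  obtain ⟨f, hf1, hf2, hf3, hf4⟩ := sylow_count (r := 7) (by norm_num) hα G hy hyc hys
  have hfo := hf4 (fun g hg => mem_alternatingGroup.mp (hG hg)) (by decide)
  obtain ⟨s, hs⟩ := h1
  have hs12 : s ∣ 12 := by
    rw [hs, show (2520 : ℕ) = 210 * 12 by norm_num] at h2
    exact Nat.dvd_of_mul_dvd_mul_left (by norm_num) h2
  have hf6 : f ≤ 6 := Nat.le_of_dvd (by norm_num) hf1
  have hs12' : s ≤ 12 := Nat.le_of_dvd (by norm_num) hs12
  by_contra hne
  obtain ⟨k, hk1, hk2⟩ := alt_index (by rw [hα]; norm_num) G hG hne
  rw [hα] at hk1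
  rw [hα, show (7 : ℕ).factorial = 5040 by decide, hs] at hk2
  have hsk : s * k = 12 := by nlinarith
  rw [hs] at hf2
  generalize Nat.card (Sylow 7 G) = n at hf2 hf3
  have hs1 : s ≤ 1 := by
    by_contra h
    nlinarith
  have hs0 : s = 1 := by
    rcases Nat.eq_zero_or_pos s with h | h
    · rw [h] at hsk; omega
    · omega
  subst hs0
  have hf30 : f * n = 30 := by nlinarith
  have hfc : f = 1 ∨ f = 3 := by
    obtain ⟨j, hj⟩ := hfo
    have : j ≤ 2 := by omega
    interval_cases j
    · left; omega
    · right; omega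
    · exfalso; rw [hj] at hf1; revert hf1; decide
  rcases hfc with rfl | rfl
  · have : n = 30 := by omega
    rw [this] at hf3
    revert hf3; decide
  · have : n = 10 := by omega
    rw [this] at hf3
    revert hf3; decide

theorem alt6 (hα : Fintype.card α = 6) (G : Subgroup (Perm α)) (hG : G ≤ alternatingGroup α) {x y : Perm α}
    (hx : x ∈ G) (hy : y ∈ G) (hxo : orderOf x = 3) (hyo : orderOf y = 5)
    (hcov : ∀ a, a ∈ x.support ∨ a ∈ y.support) :
    ∃ d : ℕ, 5 ≤ d ∧ Nonempty (G ≃* alternatingGroup (Fin d)) := by
  classical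
  haveI : Fact (Nat.Prime 5) := ⟨by norm_num⟩
  haveI : Fact (Nat.Prime 3) := ⟨by norm_num⟩
  have hyc : y.IsCycle := isCycle_of_prime_order' (by rw [hyo]; norm_num) (by rw [hyo, hα]; norm_num)
  have hys : y.support.card = 5 := by rw [← hyc.orderOf, hyo]
  haveI : IsPretransitive G α := trans_of G hx hy (by norm_num : Nat.Prime 3) (by norm_num : 3 < 5) hxo hyc hys
    (by rw [hα]) hcov
  have hprim : IsPreprimitive G α := prim_of_cycle G hy hyc (by rw [hys]; norm_num) (by rw [hα, hys]; norm_num)
  have h3 : IsMultiplyPretransitive G α 2 := mt_of_cycle G hprim hy hyc (by rw [hys]; norm_num) 0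
    (by rw [hα, hys])
  have h1 : 30 ∣ Nat.card G := by
    have := mt_dvd G 2 (by rw [hα]; norm_num) h3
    rw [hα] at this
    exact this
  obtain ⟨s, hs⟩ := h1
  by_cases hne : G = alternatingGroup α
  · refine ⟨6, by norm_num, ⟨(MulEquiv.subgroupCongr hne).trans (Equiv.altCongrHom (Fintype.equivFinOfCardEq hα))⟩⟩
  obtain ⟨k, hk1, hk2⟩ := alt_index (by rw [hα]; norm_num) G hG hne
  rw [hα] at hk1
  rw [hα, show (6 : ℕ).factorial = 720 by decide, hs] at hk2
  have hsk : s * k = 12 := by nlinarith
  have hs1 : s ≤ 2 := by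
    by_contra h
    nlinarith
  -- centralisers of elements of order 5
  have hcent5 : ∀ z : Perm α, orderOf z = 5 → ∀ g : Perm α, g * z = z * g → g ∈ Subgroup.zpowers z := by
    intro z hz g hg
    have hzc : z.IsCycle := isCycle_of_prime_order' (by rw [hz]; norm_num) (by rw [hz, hα]; norm_num)
    have hzs : z.support.card = 5 := by rw [← hzc.orderOf, hz]
    exact cent_cycle_one hzc hg (by rw [hα, hzs])
  have hcent5' : ∀ z g : Perm α, orderOf z = 5 → g * z = z * g → orderOf g ∣ 5 := by
    intro z g hz hg
    have h4 := Subgroup.orderOf_dvd_natCard _ (hcent5 z hz g hg)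
    rwa [Nat.card_zpowers, hz] at h4
  set y' : G := ⟨y, hy⟩ with hy'
  set x' : G := ⟨x, hx⟩ with hx'
  have hyo' : orderOf y' = 5 := by rw [Subgroup.orderOf_mk]; exact hyo
  have hxo' : orderOf x' = 3 := by rw [Subgroup.orderOf_mk]; exact hxo
  rcases Nat.lt_or_ge s 2 with hs2 | hs2
  · -- order 30
    exfalso
    have hs0 : s = 1 := by
      rcases Nat.eq_zero_or_pos s with h | h
      · rw [h] at hsk; omega
      · omega
    subst hs0
    rw [mul_one] at hs
    obtain ⟨f, hf1, hf2, hf3⟩ := sylow_count' (G := G) (r := 5) (x := y') hyo' (by rw [hs]; norm_num) (by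
      intro g hg
      have h4 := hcent5 y hyo (g : Perm α) (congrArg Subtype.val hg)
      obtain ⟨k, hk⟩ := Subgroup.mem_zpowers_iff.mp h4
      refine Subgroup.mem_zpowers_iff.mpr ⟨k, ?_⟩
      apply Subtype.ext
      simpa using hk)
    have h5 := card_order_prime (G := G) (r := 5) (by rw [hs]; norm_num) (by rw [hs]; norm_num)
    have h3' := card_order_prime (G := G) (r := 3) (by rw [hs]; norm_num) (by rw [hs]; norm_num)
    have h35 := dvd_card_order (G := G) (x := y') (p := 5) (by norm_num) hyo' 3 (by
      intro g hg hc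
      have h6 : orderOf (g : Perm α) ∣ 5 := hcent5' y g hyo (congrArg Subtype.val hc).symm
      rw [Subgroup.orderOf_coe, hg] at h6
      revert h6; decide)
    rw [hs] at hf2
    generalize Nat.card (Sylow 5 G) = n at hf2 hf3 h5
    have hfn : f * n = 6 := by nlinarith
    have hf4 : f ≤ 4 := Nat.le_of_dvd (by norm_num) hf1
    have hn6 : n = 6 := by
      interval_cases f
      · omega
      · omega
      · have : n = 3 := by omega
        rw [this] at hf3; exfalso; revert hf3; decide
      · exfalso; revert hf1; decide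
      · omega
    have h3pos : 0 < Nat.card (Sylow 3 G) := Nat.card_pos
    have h310 : 10 ≤ Nat.card {g : G // orderOf g = 3} := by
      rw [h3'] at h35 ⊢
      have : 5 ∣ Nat.card (Sylow 3 G) := by
        have h7 : Nat.Coprime 5 (3 - 1) := by norm_num
        exact h7.dvd_of_dvd_mul_left h35
      have := Nat.le_of_dvd h3pos this
      omega
    have h24 : Nat.card {g : G // orderOf g = 5} = 24 := by rw [h5, hn6]
    have hle : Nat.card {g : G // orderOf g = 5} + Nat.card {g : G // orderOf g = 3} ≤ Nat.card G := by
      rw [Nat.card_eq_fintype_card, Nat.card_eq_fintype_card, Nat.card_eq_fintype_card,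
        Fintype.card_subtype, Fintype.card_subtype, ← Finset.card_union_of_disjoint]
      · exact Finset.card_le_univ _
      · rw [Finset.disjoint_left]
        intro g hg hg'
        rw [Finset.mem_filter] at hg hg'
        rw [hg.2] at hg'
        exact absurd hg'.2 (by norm_num)
    omega
  · have hs0 : s = 2 := by omega
    subst hs0
    have h60 : Nat.card G = 60 := by omega
    have hnoel : ∀ (t : G) (r : ℕ), r.Prime → ¬ (∃ g : G, orderOf g = r ∧ g * t = t * g) →
        ¬ r ∣ Nat.card (Subgroup.centralizer {t}) := by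
      intro t r hr hno hdvd
      haveI := Fact.mk hr
      obtain ⟨g, hg⟩ := exists_prime_orderOf_dvd_card' (G := Subgroup.centralizer {t}) r hdvd
      apply hno
      refine ⟨g, by rw [Subgroup.orderOf_coe]; exact hg, ?_⟩
      have := Subgroup.mem_centralizer_iff.mp g.2 t rfl
      exact this.symm
    have hcd : ∀ t : G, Nat.card (Subgroup.centralizer {t}) ∣ 60 := by
      intro t; rw [← h60]; exact Subgroup.card_subgroup_dvd_card _
    have hno23 : ∀ t z : G, orderOf t = 2 → orderOf z = 3 → t * z = z * t → False := by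
      intro t z ht hz hc
      exact no_commute_six hα (t := (t : Perm α)) (z := (z : Perm α)) (by rw [Subgroup.orderOf_coe]; exact ht)
        (by rw [Subgroup.orderOf_coe]; exact hz) (mem_alternatingGroup.mp (hG t.2)) (congrArg Subtype.val hc)
    have hno5 : ∀ t z : G, orderOf z = 5 → t * z = z * t → orderOf t ∣ 5 := by
      intro t z hz hc
      have := hcent5' (z : Perm α) (t : Perm α) (by rw [Subgroup.orderOf_coe]; exact hz) (congrArg Subtype.val hc)
      rwa [Subgroup.orderOf_coe] at this
    haveI : IsSimpleGroup G := by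
      apply CfsgLib.Dk29.simple_of_cent h60
      · intro t ht
        have h6 : ¬ 3 ∣ Nat.card (Subgroup.centralizer {t}) := by
          apply hnoel t 3 (by norm_num)
          rintro ⟨g, hg, hgt⟩
          exact hno23 t g ht hg hgt.symm
        have h7 : ¬ 5 ∣ Nat.card (Subgroup.centralizer {t}) := by
          apply hnoel t 5 (by norm_num)
          rintro ⟨g, hg, hgt⟩
          have := hno5 t g hg hgt.symm
          rw [ht] at this
          revert this; decide
        have h8 := hcd t
        have h9 : Nat.card (Subgroup.centralizer {t}) ∣ 4 := by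
          have c1 : Nat.Coprime (Nat.card (Subgroup.centralizer {t})) 15 := by
            rw [show (15 : ℕ) = 3 * 5 by norm_num, Nat.coprime_mul_iff_right]
            exact ⟨((Nat.Prime.coprime_iff_not_dvd Nat.prime_three).mpr h6).symm,
              ((Nat.Prime.coprime_iff_not_dvd Nat.prime_five).mpr h7).symm⟩
          exact c1.dvd_of_dvd_mul_left (show _ ∣ 15 * 4 from h8)
        exact Nat.le_of_dvd (by norm_num) h9
      · intro t ht
        have h6 : ¬ 2 ∣ Nat.card (Subgroup.centralizer {t}) := by
          apply hnoel t 2 (by norm_num)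
          rintro ⟨g, hg, hgt⟩
          exact hno23 g t hg ht hgt
        have h7 : ¬ 5 ∣ Nat.card (Subgroup.centralizer {t}) := by
          apply hnoel t 5 (by norm_num)
          rintro ⟨g, hg, hgt⟩
          have := hno5 t g hg hgt.symm
          rw [ht] at this
          revert this; decide
        have h8 := hcd t
        have h9 : Nat.card (Subgroup.centralizer {t}) ∣ 3 := by
          have c1 : Nat.Coprime (Nat.card (Subgroup.centralizer {t})) 20 := by
            rw [show (20 : ℕ) = 2 * 2 * 5 by norm_num, Nat.coprime_mul_iff_right, Nat.coprime_mul_iff_right]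
            exact ⟨⟨((Nat.Prime.coprime_iff_not_dvd Nat.prime_two).mpr h6).symm,
              ((Nat.Prime.coprime_iff_not_dvd Nat.prime_two).mpr h6).symm⟩,
              ((Nat.Prime.coprime_iff_not_dvd Nat.prime_five).mpr h7).symm⟩
          exact c1.dvd_of_dvd_mul_left (show _ ∣ 20 * 3 from h8)
        exact Nat.le_of_dvd (by norm_num) h9
      · intro t ht
        have h6 : ¬ 2 ∣ Nat.card (Subgroup.centralizer {t}) := by
          apply hnoel t 2 (by norm_num)
          rintro ⟨g, hg, hgt⟩
          have := hno5 g t ht hgt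
          rw [hg] at this
          revert this; decide
        have h7 : ¬ 3 ∣ Nat.card (Subgroup.centralizer {t}) := by
          apply hnoel t 3 (by norm_num)
          rintro ⟨g, hg, hgt⟩
          have := hno5 g t ht hgt
          rw [hg] at this
          revert this; decide
        have h8 := hcd t
        have h9 : Nat.card (Subgroup.centralizer {t}) ∣ 5 := by
          have c1 : Nat.Coprime (Nat.card (Subgroup.centralizer {t})) 12 := by
            rw [show (12 : ℕ) = 2 * 2 * 3 by norm_num, Nat.coprime_mul_iff_right, Nat.coprime_mul_iff_right]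
            exact ⟨⟨((Nat.Prime.coprime_iff_not_dvd Nat.prime_two).mpr h6).symm,
              ((Nat.Prime.coprime_iff_not_dvd Nat.prime_two).mpr h6).symm⟩,
              ((Nat.Prime.coprime_iff_not_dvd Nat.prime_three).mpr h7).symm⟩
          exact c1.dvd_of_dvd_mul_left (show _ ∣ 12 * 5 from h8)
        exact Nat.le_of_dvd (by norm_num) h9
    exact ⟨5, le_rfl, Cfsg.Agent.S0494.result h60⟩

end A

end CfsgLib.H7PG
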