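import Mathlib
import Cfsg.Agent.LibH7PG5
import Cfsg.Agent.S4219

set_option autoImplicit false

namespace CfsgLib.H7PG

open Equiv Equiv.Perm MulAction

section A
variable {α : Type*} [Fintype α] [DecidableEq α]

theorem four_trans_case (hα : Fintype.card α = 13) (G : Subgroup (Perm α)) (hG : G ≤ alternatingGroup α)
    (h4 : IsMultiplyPretransitive G α 4) (hprim : IsPreprimitive G α) (hne : ¬ alternatingGroup α ≤ G)
    (h2 : 34320 ∣ Nat.card G) : False := by
  classical
  haveI : Fact (Nat.Prime 2) := ⟨Nat.prime_two⟩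
  haveI : Fact (Nat.Prime 5) := ⟨Nat.prime_five⟩
  obtain ⟨e⟩ : Nonempty (Fin 4 ↪ α) := Function.Embedding.nonempty_of_card_le (by simp [hα])
  have hidx : (stabilizer G e).index = 17160 := by
    rw [@index_stabilizer_of_transitive G (Fin 4 ↪ α) _ _ e h4, Nat.card_eq_fintype_card,
      Fintype.card_embedding_eq, Fintype.card_fin, hα]; decide
  have hst2 : 2 ∣ Nat.card (stabilizer G e) := by
    have h3 := (stabilizer G e).card_mul_index
    rw [hidx] at h3
    obtain ⟨c, hc⟩ := h2
    rw [hc] at h3
    exact ⟨c, by omega⟩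
  obtain ⟨P⟩ : Nonempty (Sylow 2 (stabilizer G e)) := inferInstance
  have hP2 : 2 ∣ Nat.card P := P.dvd_card_of_dvd_card hst2
  set U : Subgroup G := (P : Subgroup (stabilizer G e)).map (stabilizer G e).subtype with hU
  have hU2 : 2 ∣ Nat.card U := by
    rw [hU, Subgroup.card_map_of_injective (Subgroup.subtype_injective _)]; exact hP2
  have hUp : IsPGroup 2 U := P.isPGroup'.map _
  set F : Finset α := Finset.univ.filter (fun a => ∀ u ∈ U, (u : Perm α) a = a) with hF
  have hFU : ∀ a, a ∈ F ↔ ∀ u ∈ U, (u : Perm α) a = a := by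
    intro a; rw [hF, Finset.mem_filter]; simp
  have hFe : ∀ i, e i ∈ F := by
    intro i
    rw [hFU]
    rintro u hu
    rw [hU, Subgroup.mem_map] at hu
    obtain ⟨p, _, rfl⟩ := hu
    have h3 := mem_stabilizer_iff.mp p.2
    exact congrArg (fun f : Fin 4 ↪ α => f i) h3
  have hFfix : ∀ a, a ∈ fixedPoints U α ↔ a ∈ F := by
    intro a
    rw [hFU, mem_fixedPoints]
    constructor
    · intro h u hu; exact h ⟨u, hu⟩
    · intro h u; exact h u u.2
  have hFodd : F.card ≡ 13 [MOD 2] := by
    have h3 := hUp.card_modEq_card_fixedPoints α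
    rw [Nat.card_eq_fintype_card, hα] at h3
    have h5 : Nat.card (fixedPoints U α) = F.card := by
      rw [← Fintype.card_coe, ← Nat.card_eq_fintype_card]
      exact Nat.card_congr (Equiv.subtypeEquivRight hFfix)
    rw [h5] at h3
    exact h3.symm
  have hF4 : 4 ≤ F.card := by
    have h3 : (Finset.univ.map e) ⊆ F := by
      intro a ha
      rw [Finset.mem_map] at ha
      obtain ⟨i, _, rfl⟩ := ha
      exact hFe i
    have h5 := Finset.card_le_card h3
    rwa [Finset.card_map, Finset.card_univ, Fintype.card_fin] at h5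
  have hinv : ∀ u : G, u ∈ U → orderOf u = 2 → (u : Perm α).support = Fᶜ ∧ F.card = 5 := by
    intro u hu huo
    have huo' : orderOf (u : Perm α) = 2 := by rw [Subgroup.orderOf_coe]; exact huo
    have hu2 : (u : Perm α) ^ 2 = 1 := by rw [← huo']; exact pow_orderOf_eq_one _
    have hu1 : (u : Perm α) ≠ 1 := by
      intro h; rw [h, orderOf_one] at huo'; omega
    have h3 := even_invol hu2 (mem_alternatingGroup.mp (hG u.2))
    have h5 : (u : Perm α).support ⊆ Fᶜ := by
      intro a ha
      rw [Finset.mem_compl]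
      intro haF
      exact (mem_support.mp ha) ((hFU a).mp haF u hu)
    have h6 := Finset.card_le_card h5
    rw [Finset.card_compl, hα] at h6
    have h7 : 0 < (u : Perm α).support.card := by
      rw [Finset.card_pos, Finset.nonempty_iff_ne_empty, Ne, support_eq_empty_iff]
      exact hu1
    have h8 : (u : Perm α).support.card ≠ 4 := by
      intro h
      obtain ⟨w, hw, hw3⟩ := three_cycle_of_double G h4 (by rw [hα]; norm_num) u.2 hu2 h
      exact hne (alternatingGroup_le_of_isPreprimitive_of_isThreeCycle_mem hprim hw3 hw)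
    have h9 : F.card = 5 := by
      have : F.card % 2 = 13 % 2 := hFodd
      omega
    refine ⟨?_, h9⟩
    apply Finset.eq_of_subset_of_card_le h5
    rw [Finset.card_compl, hα, h9]
    omega
  obtain ⟨u0, hu0⟩ := exists_prime_orderOf_dvd_card' (G := U) 2 hU2
  have hF5 : F.card = 5 := (hinv u0 u0.2 (by rw [Subgroup.orderOf_coe]; exact hu0)).2
  -- the Witt element
  let ε : Fin 5 ≃ {a // a ∈ F} := (F.equivFinOfCardEq hF5).symm
  let a' : Fin 4 ↪ α := ⟨fun i => (ε i.castSucc : α), by
    intro i j hij
    exact Fin.castSucc_injective _ (ε.injective (Subtype.ext hij))⟩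
  let b' : Fin 4 ↪ α := ⟨fun i => (ε i.succ : α), by
    intro i j hij
    exact Fin.succ_injective _ (ε.injective (Subtype.ext hij))⟩
  obtain ⟨g, hgN, hgab⟩ := Cfsg.Agent.S4219.result h4 e P a' b' (by
    intro i; exact (hFfix _).mpr (ε i.castSucc).2) (by intro i; exact (hFfix _).mpr (ε i.succ).2)
  have hgab' : ∀ i : Fin 4, (g : Perm α) (ε i.castSucc) = ε i.succ :=
    fun i => congrArg (fun f : Fin 4 ↪ α => f i) hgab
  have hNF : ∀ n : G, n ∈ Subgroup.normalizer (U : Set G) → ∀ c ∈ F, (n : Perm α) c ∈ F := by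
    intro n hn c hc
    rw [hFU]
    intro u hu
    have h3 : n⁻¹ * u * n ∈ U := by
      have h5 := (Subgroup.mem_normalizer_iff.mp (Subgroup.inv_mem _ hn) u).mp hu
      rwa [inv_inv] at h5
    have h5 := (hFU c).mp hc _ h3
    have h6 : ((n⁻¹ * u * n : G) : Perm α) = (n : Perm α)⁻¹ * (u : Perm α) * (n : Perm α) := rfl
    rw [h6, Perm.mul_apply, Perm.mul_apply, Perm.inv_eq_iff_eq] at h5
    exact h5
  have hg4 : (g : Perm α) (ε (Fin.last 4)) = ε 0 := by
    have h3 := hNF g hgN _ (ε (Fin.last 4)).2
    obtain ⟨j, hj⟩ := ε.surjective ⟨_, h3⟩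
    have hj' : (ε j : α) = (g : Perm α) (ε (Fin.last 4)) := congrArg Subtype.val hj
    rcases Fin.eq_zero_or_eq_succ j with rfl | ⟨i, rfl⟩
    · exact hj'.symm
    · exfalso
      rw [← hgab' i] at hj'
      have h5 := ε.injective (Subtype.ext ((g : Perm α).injective hj'))
      exact absurd h5 (Fin.castSucc_lt_last i).ne
  have hg5 : ∀ c ∈ F, ((g : Perm α) ^ 5) c = c ∧ (g : Perm α) c ≠ c := by
    intro c hc
    obtain ⟨j, hj⟩ := ε.surjective ⟨c, hc⟩
    have hj' : c = (ε j : α) := (congrArg Subtype.val hj).symm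
    have e0 : (g : Perm α) (ε 0) = ε 1 := hgab' 0
    have e1 : (g : Perm α) (ε 1) = ε 2 := hgab' 1
    have e2 : (g : Perm α) (ε 2) = ε 3 := hgab' 2
    have e3 : (g : Perm α) (ε 3) = ε 4 := hgab' 3
    have e4 : (g : Perm α) (ε 4) = ε 0 := hg4
    have hpow : ((g : Perm α) ^ 5) c = (g : Perm α) ((g : Perm α) ((g : Perm α) ((g : Perm α) ((g : Perm α) c)))) := rfl
    have hinj : ∀ i k : Fin 5, i ≠ k → (ε i : α) ≠ ε k := by
      intro i k hik h
      exact hik (ε.injective (Subtype.ext h))
    rw [hpow, hj']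
    fin_cases j
    · constructor
      · show (g : Perm α) ((g : Perm α) ((g : Perm α) ((g : Perm α) ((g : Perm α) (ε 0))))) = ε 0
        rw [e0, e1, e2, e3, e4]
      · show (g : Perm α) (ε 0) ≠ ε 0
        rw [e0]; exact hinj _ _ (by decide)
    · constructor
      · show (g : Perm α) ((g : Perm α) ((g : Perm α) ((g : Perm α) ((g : Perm α) (ε 1))))) = ε 1
        rw [e1, e2, e3, e4, e0]
      · show (g : Perm α) (ε 1) ≠ ε 1
        rw [e1]; exact hinj _ _ (by decide)
    · constructor
      · show (g : Perm α) ((g : Perm α) ((g : Perm α) ((g : Perm α) ((g : Perm α) (ε 2))))) = ε 2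
        rw [e2, e3, e4, e0, e1]
      · show (g : Perm α) (ε 2) ≠ ε 2
        rw [e2]; exact hinj _ _ (by decide)
    · constructor
      · show (g : Perm α) ((g : Perm α) ((g : Perm α) ((g : Perm α) ((g : Perm α) (ε 3))))) = ε 3
        rw [e3, e4, e0, e1, e2]
      · show (g : Perm α) (ε 3) ≠ ε 3
        rw [e3]; exact hinj _ _ (by decide)
    · constructor
      · show (g : Perm α) ((g : Perm α) ((g : Perm α) ((g : Perm α) ((g : Perm α) (ε 4))))) = ε 4
        rw [e4, e0, e1, e2, e3]
      · show (g : Perm α) (ε 4) ≠ ε 4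
        rw [e4]; exact hinj _ _ (by decide)
  -- the 5-part
  have hgo : orderOf g ≠ 0 := (orderOf_pos g).ne'
  set m : ℕ := orderOf g / 5 ^ (orderOf g).factorization 5 with hm
  set a : ℕ := (orderOf g).factorization 5 with ha
  have hma : 5 ^ a * m = orderOf g := Nat.ordProj_mul_ordCompl_eq_self (orderOf g) 5
  have hmc : Nat.Coprime 5 m := Nat.coprime_ordCompl Nat.prime_five hgo
  set r : G := g ^ m with hr
  have hr5 : r ^ (5 ^ a) = 1 := by
    rw [hr, ← pow_mul, mul_comm, hma, pow_orderOf_eq_one]
  have hrN : r ∈ Subgroup.normalizer (U : Set G) := Subgroup.pow_mem _ hgN _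
  have hr5' : (r : Perm α) ^ (5 ^ a) = 1 := by
    have := congrArg Subtype.val hr5
    simpa using this
  have hrc : (r : Perm α) = (g : Perm α) ^ m := by rw [hr]; simp
  have hrF : ∀ c ∈ F, (r : Perm α) c ≠ c := by
    intro c hc h
    rw [hrc] at h
    have h3 : Function.minimalPeriod (g : Perm α) c = 5 := by
      apply Function.minimalPeriod_eq_prime
      · show (⇑(g : Perm α))^[5] c = c
        rw [← Perm.coe_pow]; exact (hg5 c hc).1
      · exact (hg5 c hc).2
    have h5 : 5 ∣ m := by
      rw [← h3]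
      apply Function.IsPeriodicPt.minimalPeriod_dvd
      show (⇑(g : Perm α))^[m] c = c
      rw [← Perm.coe_pow]; exact h
    have h6 := Nat.eq_one_of_dvd_coprimes hmc (dvd_refl 5) h5
    omega
  have hrF5 : ∀ c ∈ F, ((r : Perm α) ^ 5) c = c := by
    intro c hc
    rw [hrc, ← pow_mul, mul_comm, pow_mul]
    exact pow_apply_eq_self_of_apply_eq_self (hg5 c hc).1 m
  -- involutions and semiregularity
  have hsemi : ∀ w : G, w ∈ U → w ≠ 1 → ∃ k : ℕ, orderOf (w ^ k) = 2 := by
    intro w hw hw1
    obtain ⟨n, hn⟩ := IsPGroup.iff_orderOf.mp hUp ⟨w, hw⟩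
    rw [Subgroup.orderOf_mk] at hn
    have hn0 : n ≠ 0 := by
      rintro rfl
      rw [pow_zero, orderOf_eq_one_iff] at hn
      exact hw1 hn
    obtain ⟨j, rfl⟩ := Nat.exists_eq_succ_of_ne_zero hn0
    refine ⟨2 ^ j, ?_⟩
    rw [orderOf_pow' _ (by positivity), hn]
    have : Nat.gcd (2 ^ (j + 1)) (2 ^ j) = 2 ^ j := by
      rw [Nat.gcd_comm]; exact Nat.gcd_eq_left (pow_dvd_pow 2 (Nat.le_succ j))
    rw [Nat.succ_eq_add_one, this, pow_succ, Nat.mul_div_cancel_left _ (by positivity)]
  obtain ⟨b, hb⟩ : ∃ b, b ∉ F := by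
    by_contra hcon
    push Not at hcon
    have : F = Finset.univ := Finset.eq_univ_iff_forall.mpr hcon
    rw [this, Finset.card_univ, hα] at hF5
    omega
  have hfree : ∀ w : G, w ∈ U → w ≠ 1 → ∀ c, c ∉ F → (w : Perm α) c ≠ c := by
    intro w hw hw1 c hc hwc
    obtain ⟨k, hk⟩ := hsemi w hw hw1
    have h3 := (hinv (w ^ k) (U.pow_mem hw k) hk).1
    have h5 : c ∈ ((w ^ k : G) : Perm α).support := by rw [h3, Finset.mem_compl]; exact hc
    rw [mem_support] at h5
    apply h5
    have : ((w ^ k : G) : Perm α) = (w : Perm α) ^ k := by simp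
    rw [this]
    exact pow_apply_eq_self_of_apply_eq_self hwc k
  have hUle : Nat.card U ≤ 8 := by
    have h3 : Function.Injective (fun w : U => (⟨((w : G) : Perm α) b, by
        rw [Finset.mem_compl]
        intro h
        have h5 := (hFU _).mp h (w : G)⁻¹ (U.inv_mem w.2)
        have h6 : (((w : G)⁻¹ : G) : Perm α) (((w : G) : Perm α) b) = b := by simp
        rw [h6] at h5
        rw [← h5] at h
        exact hb h⟩ : {a // a ∈ Fᶜ})) := by
      intro w w' hww
      have h5 : ((w : G) : Perm α) b = ((w' : G) : Perm α) b := congrArg Subtype.val hww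
      by_contra hne'
      have h6 : ((w' : G)⁻¹ * (w : G)) ≠ 1 := by
        intro h
        apply hne'
        apply Subtype.ext
        exact (inv_mul_eq_one.mp h).symm
      apply hfree _ (U.mul_mem (U.inv_mem w'.2) w.2) h6 b hb
      show (((w' : G) : Perm α)⁻¹ * ((w : G) : Perm α)) b = b
      rw [Perm.mul_apply, h5]; simp
    have h5 := Nat.card_le_card_of_injective _ h3
    rw [Nat.card_eq_fintype_card (α := {a // a ∈ Fᶜ}), Fintype.card_coe, Finset.card_compl, hα, hF5] at h5
    exact h5
  -- an involution commuting with r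
  obtain ⟨w, hwU, hw1, hwr⟩ : ∃ w : G, w ∈ U ∧ w ≠ 1 ∧ r * w = w * r := by
    by_contra hcon
    push Not at hcon
    haveI := Fintype.ofFinite G
    let Y : Finset G := Finset.univ.filter (fun w => w ∈ U ∧ w ≠ 1)
    have hconj : ∀ n : G, n ∈ Subgroup.normalizer (U : Set G) → ∀ w, w ∈ U → n * w * n⁻¹ ∈ U := by
      intro n hn w hw
      exact (Subgroup.mem_normalizer_iff.mp hn w).mp hw
    have h3 : 5 ∣ Y.card := by
      let f : Perm G := (MulAut.conj r).toEquiv
      have hfapp : ∀ w, f w = r * w * r⁻¹ := fun w => rfl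
      have hiff : ∀ w, f w ∈ Y ↔ w ∈ Y := by
        intro w
        simp only [Y, Finset.mem_filter, Finset.mem_univ, true_and, hfapp]
        have h5 : r * w * r⁻¹ ∈ U ↔ w ∈ U := (Subgroup.mem_normalizer_iff.mp hrN w).symm
        rw [h5]
        have h6 : r * w * r⁻¹ = 1 ↔ w = 1 := by
          rw [mul_inv_eq_one, mul_eq_left]
        rw [Ne, h6]
      let f' : Perm {w // w ∈ Y} := f.subtypePerm hiff
      have hfpow : ∀ (n : ℕ) (w : G), (f ^ n) w = r ^ n * w * (r ^ n)⁻¹ := by
        intro n
        induction n with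
        | zero => intro g; simp
        | succ n ih =>
          intro g
          rw [pow_succ', Perm.mul_apply, hfapp, ih, pow_succ']
          group
      have hf : f' ^ 5 ^ a = 1 := by
        show (f.subtypePerm hiff) ^ (5 ^ a) = 1
        rw [subtypePerm_pow]
        apply Equiv.ext
        intro w
        apply Subtype.ext
        show (f ^ (5 ^ a)) (w : G) = w
        rw [hfpow, hr5]; simp
      have h1 := card_compl_support_modEq hf
      have h2 : f'.supportᶜ = ∅ := by
        rw [Finset.eq_empty_iff_forall_notMem]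
        intro w hw
        rw [Finset.mem_compl, mem_support, not_not] at hw
        have h5 : f (w : G) = w := congrArg Subtype.val hw
        rw [hfapp, mul_inv_eq_iff_eq_mul] at h5
        have h6 := w.2
        simp only [Y, Finset.mem_filter, Finset.mem_univ, true_and] at h6
        exact hcon w h6.1 h6.2 h5
      rw [h2, Finset.card_empty, Fintype.card_coe] at h1
      exact (Nat.modEq_zero_iff_dvd).mp h1.symm
    have h5 : Y.card + 1 = Nat.card U := by
      have h6 : Y = (Finset.univ.filter (fun w : G => w ∈ U)).erase 1 := by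
        ext w
        simp only [Y, Finset.mem_filter, Finset.mem_univ, true_and, Finset.mem_erase]
        tauto
      have h7 : (Finset.univ.filter (fun w : G => w ∈ U)).card = Nat.card U := by
        rw [Nat.card_eq_fintype_card, Fintype.card_subtype]
      rw [h6, Finset.card_erase_of_mem (by simp [U.one_mem]), h7]
      have := Nat.card_pos (α := U)
      omega
    obtain ⟨k, hk⟩ := IsPGroup.iff_card.mp hUp
    rw [hk] at h5 hUle hU2
    have hk3 : k ≤ 3 := by
      by_contra h
      have : 2 ^ 4 ≤ 2 ^ k := Nat.pow_le_pow_right (by norm_num) (by omega)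
      omega
    interval_cases k
    · omega
    · omega
    · omega
    · omega
  obtain ⟨k, hk⟩ := hsemi w hwU hw1
  have huS := (hinv (w ^ k) (U.pow_mem hwU k) hk).1
  have hur : ((w ^ k : G) : Perm α) * (r : Perm α) = (r : Perm α) * ((w ^ k : G) : Perm α) := by
    have h3 : Commute r w := hwr
    exact congrArg Subtype.val (h3.pow_right k).eq.symm
  have hu2 : ((w ^ k : G) : Perm α) ^ 2 = 1 := by
    have : (w ^ k) ^ 2 = 1 := by rw [← hk]; exact pow_orderOf_eq_one _
    have h3 := congrArg Subtype.val this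
    simpa using h3
  -- the moved points of r outside F
  have hM2 : 2 ∣ ((r : Perm α).support \ F).card := by
    apply dvd_card_of_free Nat.prime_two hu2
    · intro c hc
      rw [Finset.mem_sdiff] at hc ⊢
      refine ⟨supp_comm hur hc.1, ?_⟩
      intro h
      have h3 : ((w ^ k : G) : Perm α) (((w ^ k : G) : Perm α) c) = c := by
        rw [← Perm.mul_apply, ← sq, hu2]; rfl
      rw [(hFU _).mp h (w ^ k) (U.pow_mem hwU k)] at h3
      rw [h3] at h
      exact hc.2 h
    · intro c hc
      rw [Finset.mem_sdiff] at hc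
      rw [← mem_support, huS, Finset.mem_compl]
      exact hc.2
  have hFs : F ⊆ (r : Perm α).support := fun c hc => mem_support.mpr (hrF c hc)
  have hs5 : 5 ∣ (r : Perm α).support.card := by
    have h3 := card_compl_support_modEq hr5'
    rw [Finset.card_compl, hα] at h3
    have h5 : (r : Perm α).support.card ≤ 13 := by rw [← hα]; exact Finset.card_le_univ _
    have h6 : (13 - (r : Perm α).support.card) % 5 = 13 % 5 := h3
    omega
  have hM : ((r : Perm α).support \ F).card = 0 := by
    have h3 := Finset.card_sdiff_add_card_eq_card hFs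
    rw [hF5] at h3
    have h5 : (r : Perm α).support.card ≤ 13 := by rw [← hα]; exact Finset.card_le_univ _
    omega
  have hsup : (r : Perm α).support = F := by
    apply Finset.Subset.antisymm _ hFs
    rw [← Finset.sdiff_eq_empty_iff_subset]
    exact Finset.card_eq_zero.mp hM
  have hr5'' : (r : Perm α) ^ 5 = 1 := by
    ext c
    by_cases hc : c ∈ F
    · rw [hrF5 c hc]; rfl
    · rw [← hsup, mem_support, not_not] at hc
      rw [pow_apply_eq_self_of_apply_eq_self hc]; rfl
  have hr1 : (r : Perm α) ≠ 1 := by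
    intro h
    exact hrF _ (hFe 0) (by rw [h]; rfl)
  have hro : orderOf (r : Perm α) = 5 := orderOf_eq_prime hr5'' hr1
  have hrcyc : (r : Perm α).IsCycle := isCycle_of_prime_order (by rw [hro]; norm_num) (by rw [hro, hsup, hF5]; norm_num)
  exact hne (CfsgLib.H6.jordan_prime_cycle G hprim Nat.prime_five (by rw [hα]; norm_num) hrcyc
    (by rw [hsup, hF5]) r.2)

end A

end CfsgLib.H7PG
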