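import Mathlib
import Cfsg.Agent.LibH7PG6
import Cfsg.Agent.S0675

set_option autoImplicit false

namespace CfsgLib.H7PG

open Equiv Equiv.Perm MulAction

section A
variable {α : Type*} [Fintype α] [DecidableEq α]

theorem sum_orders {G : Type*} [Group G] [Finite G] (D : Finset ℕ) :
    ∑ d ∈ D, Nat.card {g : G // orderOf g = d} ≤ Nat.card G := by
  classical
  haveI := Fintype.ofFinite G
  have h1 := Finset.sum_card_fiberwise_eq_card_filter (Finset.univ : Finset G) D (fun g => orderOf g)
  have h2 : ∀ d, Nat.card {g : G // orderOf g = d} = (Finset.univ.filter (fun g : G => orderOf g = d)).card := by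
    intro d
    rw [Nat.card_eq_fintype_card, Fintype.card_subtype]
  rw [Finset.sum_congr rfl (fun d _ => h2 d), h1, Nat.card_eq_fintype_card]
  exact Finset.card_le_univ _

/-- centraliser of a long cycle fixing two points, in an even group -/
theorem cent_cycle_two {x c : Perm α} (hx : x.IsCycle) (hc : c * x = x * c) (hxe : sign x = 1) (hce : sign c = 1)
    (h1 : Fintype.card α = x.support.card + 2) : c ∈ Subgroup.zpowers x := by
  classical
  obtain ⟨a, ha⟩ := hx.nonempty_support
  obtain ⟨k, hk⟩ := CfsgLib.H6.cycle_comm_pow hx hc ha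
  set h : Perm α := (x ^ k)⁻¹ * c with hh
  have hsup : h.support ⊆ x.supportᶜ := by
    intro b hb
    rw [Finset.mem_compl]
    intro hbx
    apply (mem_support.mp hb)
    rw [hh, Perm.mul_apply, hk b hbx]
    simp
  have hcard := Finset.card_le_card hsup
  rw [Finset.card_compl, h1] at hcard
  have hs : sign h = 1 := by
    rw [hh, map_mul, map_inv, map_zpow, hxe, hce]; simp
  have h2 : h.support.card = 0 := by
    have h3 : h.support.card ≤ 2 := by omega
    interval_cases hcc : h.support.card
    · rfl
    · exact absurd hcc (card_support_ne_one _)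
    · rw [card_support_eq_two] at hcc
      rw [hcc.sign_eq] at hs
      exact absurd hs (by decide)
  have h3 : h = 1 := by
    rw [← support_eq_empty_iff]; exact Finset.card_eq_zero.mp h2
  rw [hh, inv_mul_eq_one] at h3
  exact Subgroup.mem_zpowers_iff.mpr ⟨k, h3⟩

theorem alt13 (hα : Fintype.card α = 13) (G : Subgroup (Perm α)) (hG : G ≤ alternatingGroup α) {x y : Perm α}
    (hx : x ∈ G) (hy : y ∈ G) (hxo : orderOf x = 11) (hyo : orderOf y = 13) : G = alternatingGroup α := by
  classical
  haveI : Fact (Nat.Prime 13) := ⟨by norm_num⟩
  haveI : Fact (Nat.Prime 11) := ⟨by norm_num⟩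
  apply le_antisymm hG
  by_contra hne
  have hxc : x.IsCycle := isCycle_of_prime_order' (by rw [hxo]; norm_num) (by rw [hxo, hα]; norm_num)
  have hyc : y.IsCycle := isCycle_of_prime_order' (by rw [hyo]; norm_num) (by rw [hyo, hα]; norm_num)
  have hxs : x.support.card = 11 := by rw [← hxc.orderOf, hxo]
  have hys : y.support.card = 13 := by rw [← hyc.orderOf, hyo]
  have hyu : y.support = Finset.univ := by
    rw [← Finset.card_eq_iff_eq_univ, hys, hα]
  haveI : IsPretransitive G α := trans_of G hx hy (by norm_num : Nat.Prime 11) (by norm_num : 11 < 13) hxo hyc hys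
    (by rw [hα]; norm_num) (fun a => Or.inr (by rw [hyu]; exact Finset.mem_univ a))
  have hprim : IsPreprimitive G α :=
    IsPreprimitive.of_prime_card (by rw [Nat.card_eq_fintype_card, hα]; norm_num)
  have h3 : IsMultiplyPretransitive G α 3 := mt_of_cycle G hprim hx hxc (by rw [hxs]; norm_num) 1
    (by rw [hα, hxs])
  have h2t : IsMultiplyPretransitive G α 2 :=
    MulAction.isMultiplyPretransitive_of_le (n := 3) (by norm_num) (by rw [Nat.card_eq_fintype_card, hα]; norm_num)
  have hev : ∀ g ∈ G, sign g = 1 := fun g hg => mem_alternatingGroup.mp (hG hg)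
  -- no element of order 7
  have h7 : ¬ 7 ∣ Nat.card G := by
    intro h
    haveI : Fact (Nat.Prime 7) := ⟨by norm_num⟩
    obtain ⟨g, hg⟩ := exists_prime_orderOf_dvd_card' (G := G) 7 h
    have hg' : orderOf (g : Perm α) = 7 := by rw [Subgroup.orderOf_coe]; exact hg
    have hgc : (g : Perm α).IsCycle := isCycle_of_prime_order' (by rw [hg']; norm_num) (by rw [hg', hα]; norm_num)
    exact hne (CfsgLib.H6.jordan_prime_cycle G hprim (p := 7) (by norm_num) (by rw [hα]; norm_num) hgc
      (by rw [← hgc.orderOf, hg']) g.2)
  have hdiv : 2 * Nat.card G ∣ Nat.factorial 13 := by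
    have := alt_card_dvd (by rw [hα]; norm_num) G hG
    rwa [hα] at this
  have hf13 : Nat.factorial 13 = 6227020800 := by decide
  rw [hf13] at hdiv
  -- the group K
  set X : Finset α := x.support with hX
  set K : Subgroup (Perm {a // a ∈ X}) := G.comap (Perm.ofSubtype : Perm {a // a ∈ X} →* Perm α) with hK
  have hcX : Fintype.card {a // a ∈ X} = 11 := by rw [Fintype.card_coe]; exact hxs
  have hGK : Nat.card G = 156 * Nat.card K := by
    have := card_comap G X 2 (by rw [Finset.card_compl, hα]; omega) h2t
    rw [hα] at this
    exact this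
  have hxX : ∀ a, x a ∈ X ↔ a ∈ X := fun a => apply_mem_support
  set x₀ : Perm {a // a ∈ X} := x.subtypePerm hxX with hx₀
  have hofx : ofSubtype x₀ = x := by
    apply ofSubtype_subtypePerm
    intro a ha; exact mem_support.mpr ha
  have hx₀K : x₀ ∈ K := by rw [hK, Subgroup.mem_comap, hofx]; exact hx
  have hx₀o : orderOf x₀ = 11 := by
    rw [← orderOf_injective (Perm.ofSubtype : Perm {a // a ∈ X} →* Perm α) ofSubtype_injective x₀, hofx, hxo]
  have hx₀c : x₀.IsCycle := isCycle_of_prime_order' (by rw [hx₀o]; norm_num) (by rw [hx₀o, hcX]; norm_num)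
  have hx₀s : x₀.support.card = 11 := by rw [← hx₀c.orderOf, hx₀o]
  have hx₀u : x₀.support = Finset.univ := by
    rw [← Finset.card_eq_iff_eq_univ, hx₀s, hcX]
  haveI hKt : IsPretransitive K {a // a ∈ X} := by
    refine ⟨fun a b => ?_⟩
    obtain ⟨i, hi⟩ := hx₀c.exists_zpow_eq (mem_support.mp (by rw [hx₀u]; exact Finset.mem_univ a))
      (mem_support.mp (by rw [hx₀u]; exact Finset.mem_univ b))
    exact ⟨⟨x₀ ^ i, K.zpow_mem hx₀K i⟩, hi⟩
  obtain ⟨f, hf1, hf2, hf3, hf4⟩ := sylow_count (r := 11) (by norm_num) hcX K hx₀K hx₀c hx₀s
  have hfo := hf4 (fun g hg => by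
    rw [← sign_ofSubtype]
    exact hev _ hg) (by decide)
  have hf15 : f = 1 ∨ f = 5 := by
    have hf10 : f ≤ 10 := Nat.le_of_dvd (by norm_num) hf1
    have hf0 : 0 < f := Nat.pos_of_dvd_of_pos hf1 (by norm_num)
    interval_cases f
    · left; rfl
    · exact absurd hfo (by decide)
    · exact absurd hf1 (by decide)
    · exact absurd hf1 (by decide)
    · right; rfl
    · exact absurd hfo (by decide)
    · exact absurd hf1 (by decide)
    · exact absurd hf1 (by decide)
    · exact absurd hf1 (by decide)
    · exact absurd hfo (by decide)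
  rcases Cfsg.Agent.S0675.result (by rw [hcX]; norm_num) K with hsol | hK2
  · -- solvable case
    have hn1 := sylow_one hcX K hsol
    rw [hn1, mul_one] at hf2
    rw [hf2] at hGK
    obtain ⟨f', hf'1, hf'2, hf'3, _⟩ := sylow_count (r := 13) (by norm_num) hα G hy hyc hys
    have hf12 : f' ≤ 12 := Nat.le_of_dvd (by norm_num) hf'1
    have hf'0 : 0 < f' := Nat.pos_of_dvd_of_pos hf'1 (by norm_num)
    rcases hf15 with rfl | rfl
    · -- order 1716
      have h1716 : Nat.card G = 1716 := by rw [hGK]
      have hprod : f' * Nat.card (Sylow 13 G) = 132 := by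
        have : 13 * f' * Nat.card (Sylow 13 G) = 1716 := by rw [← hf'2, h1716]
        nlinarith
      have h66 : Nat.card (Sylow 13 G) = 66 := by
        generalize Nat.card (Sylow 13 G) = n at hprod hf'3
        interval_cases f'
        · have : n = 132 := by omega
          rw [this] at hf'3; exact absurd hf'3 (by decide)
        · omega
        · have : n = 44 := by omega
          rw [this] at hf'3; exact absurd hf'3 (by decide)
        · have : n = 33 := by omega
          rw [this] at hf'3; exact absurd hf'3 (by decide)
        · exact absurd hf'1 (by decide)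
        · have : n = 22 := by omega
          rw [this] at hf'3; exact absurd hf'3 (by decide)
        · exact absurd hf'1 (by decide)
        · exact absurd hf'1 (by decide)
        · exact absurd hf'1 (by decide)
        · exact absurd hf'1 (by decide)
        · exact absurd hf'1 (by decide)
        · have : n = 11 := by omega
          rw [this] at hf'3; exact absurd hf'3 (by decide)
      have hA13 := card_order_prime (G := G) (r := 13) (by rw [h1716]; norm_num) (by rw [h1716]; norm_num)
      rw [h66] at hA13
      set x' : G := ⟨x, hx⟩ with hx'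
      set y' : G := ⟨y, hy⟩ with hy'
      have hxo' : orderOf x' = 11 := by rw [Subgroup.orderOf_mk]; exact hxo
      have hyo' : orderOf y' = 13 := by rw [Subgroup.orderOf_mk]; exact hyo
      have hcx : ∀ g : G, g * x' = x' * g → g ∈ Subgroup.zpowers x' := by
        intro g hg
        have h4 : (g : Perm α) ∈ Subgroup.zpowers x :=
          cent_cycle_two hxc (congrArg Subtype.val hg) (hev x hx) (hev g g.2) (by rw [hα, hxs])
        obtain ⟨k, hk⟩ := Subgroup.mem_zpowers_iff.mp h4
        refine Subgroup.mem_zpowers_iff.mpr ⟨k, ?_⟩
        apply Subtype.ext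
        simpa using hk
      have hcy : ∀ g : G, g * y' = y' * g → g ∈ Subgroup.zpowers y' := by
        intro g hg
        have h4 : (g : Perm α) ∈ Subgroup.zpowers y :=
          cent_cycle_one hyc (congrArg Subtype.val hg) (by rw [hα, hys]; norm_num)
        obtain ⟨k, hk⟩ := Subgroup.mem_zpowers_iff.mp h4
        refine Subgroup.mem_zpowers_iff.mpr ⟨k, ?_⟩
        apply Subtype.ext
        simpa using hk
      obtain ⟨f'', hf''1, hf''2, hf''3⟩ := sylow_count' (G := G) (r := 11) (x := x') hxo'
        (by rw [h1716]; norm_num) hcx
      have hprod' : f'' * Nat.card (Sylow 11 G) = 156 := by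
        have : 11 * f'' * Nat.card (Sylow 11 G) = 1716 := by rw [← hf''2, h1716]
        nlinarith
      have hf''10 : f'' ≤ 10 := Nat.le_of_dvd (by norm_num) hf''1
      have hf''0 : 0 < f'' := Nat.pos_of_dvd_of_pos hf''1 (by norm_num)
      have h78 : Nat.card (Sylow 11 G) = 78 := by
        generalize Nat.card (Sylow 11 G) = n at hprod' hf''3
        interval_cases f''
        · have : n = 156 := by omega
          rw [this] at hf''3; exact absurd hf''3 (by decide)
        · omega
        · exact absurd hf''1 (by decide)
        · exact absurd hf''1 (by decide)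
        · omega
        · exact absurd hf''1 (by decide)
        · exact absurd hf''1 (by decide)
        · exact absurd hf''1 (by decide)
        · exact absurd hf''1 (by decide)
        · omega
      have hA11 := card_order_prime (G := G) (r := 11) (by rw [h1716]; norm_num) (by rw [h1716]; norm_num)
      rw [h78] at hA11
      have hordx : ∀ g : G, x' * g = g * x' → orderOf g ∣ 11 := by
        intro g hg
        have h4 := Subgroup.orderOf_dvd_natCard _ (hcx g hg.symm)
        rwa [Nat.card_zpowers, hxo'] at h4
      have hordy : ∀ g : G, y' * g = g * y' → orderOf g ∣ 13 := by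
        intro g hg
        have h4 := Subgroup.orderOf_dvd_natCard _ (hcy g hg.symm)
        rwa [Nat.card_zpowers, hyo'] at h4
      have hx3 := dvd_card_order (G := G) (x := x') (p := 11) (by norm_num) hxo' 3 (by
        intro g hg hc
        have := hordx g hc
        rw [hg] at this
        exact absurd this (by decide))
      have hy3 := dvd_card_order (G := G) (x := y') (p := 13) (by norm_num) hyo' 3 (by
        intro g hg hc
        have := hordy g hc
        rw [hg] at this
        exact absurd this (by decide))
      have hy2 := dvd_card_order (G := G) (x := y') (p := 13) (by norm_num) hyo' 2 (by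
        intro g hg hc
        have := hordy g hc
        rw [hg] at this
        exact absurd this (by decide))
      have hpos : ∀ r : ℕ, r.Prime → r ∣ 1716 → 0 < Nat.card {g : G // orderOf g = r} := by
        intro r hr hrd
        haveI := Fact.mk hr
        obtain ⟨g, hg⟩ := exists_prime_orderOf_dvd_card' (G := G) r (by rw [h1716]; exact hrd)
        haveI : Nonempty {g : G // orderOf g = r} := ⟨⟨g, hg⟩⟩
        exact Nat.card_pos
      have hA3 : 143 ≤ Nat.card {g : G // orderOf g = 3} := by
        apply Nat.le_of_dvd (hpos 3 (by norm_num) (by norm_num))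
        rw [show (143 : ℕ) = 11 * 13 by norm_num]
        exact Nat.Coprime.mul_dvd_of_dvd_of_dvd (by norm_num) hx3 hy3
      have hA2 : 13 ≤ Nat.card {g : G // orderOf g = 2} :=
        Nat.le_of_dvd (hpos 2 (by norm_num) (by norm_num)) hy2
      have hsum := sum_orders (G := G) {2, 3, 11, 13}
      rw [Finset.sum_insert (by decide), Finset.sum_insert (by decide), Finset.sum_insert (by decide),
        Finset.sum_singleton, h1716, hA11, hA13] at hsum
      omega
    · -- order 8580
      have hprod : f' * Nat.card (Sylow 13 G) = 660 := by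
        have : 13 * f' * Nat.card (Sylow 13 G) = 8580 := by rw [← hf'2, hGK]
        nlinarith
      generalize Nat.card (Sylow 13 G) = n at hprod hf'3
      interval_cases f'
      · have : n = 660 := by omega
        rw [this] at hf'3; exact absurd hf'3 (by decide)
      · have : n = 330 := by omega
        rw [this] at hf'3; exact absurd hf'3 (by decide)
      · have : n = 220 := by omega
        rw [this] at hf'3; exact absurd hf'3 (by decide)
      · have : n = 165 := by omega
        rw [this] at hf'3; exact absurd hf'3 (by decide)
      · exact absurd hf'1 (by decide)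
      · have : n = 110 := by omega
        rw [this] at hf'3; exact absurd hf'3 (by decide)
      · exact absurd hf'1 (by decide)
      · exact absurd hf'1 (by decide)
      · exact absurd hf'1 (by decide)
      · exact absurd hf'1 (by decide)
      · exact absurd hf'1 (by decide)
      · have : n = 55 := by omega
        rw [this] at hf'3; exact absurd hf'3 (by decide)
  · -- doubly transitive case
    have h4 : IsMultiplyPretransitive G α 4 := by
      apply CfsgLib.PermBasic.mt_of_fixing (m := 2) (k := 2) h2t (((X : Set α))ᶜ) (Set.toFinite _)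
      · have h5 := Set.ncard_add_ncard_compl (X : Set α)
        rw [Set.ncard_coe_finset, Nat.card_eq_fintype_card, hα, hxs] at h5
        omega
      · intro a b ha hb haX hbX
        rw [CfsgLib.PermBasic.mt_iff] at hK2
        have haX' : ∀ i, a i ∈ X := fun i => by
          have := haX i
          rwa [Set.mem_compl_iff, not_not, Finset.mem_coe] at this
        have hbX' : ∀ i, b i ∈ X := fun i => by
          have := hbX i
          rwa [Set.mem_compl_iff, not_not, Finset.mem_coe] at this
        obtain ⟨g, hg⟩ := hK2 (fun i => ⟨a i, haX' i⟩) (fun i => ⟨b i, hbX' i⟩)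
          (fun i j hij => ha (congrArg Subtype.val hij)) (fun i j hij => hb (congrArg Subtype.val hij))
        refine ⟨⟨ofSubtype (g : Perm {a // a ∈ X}), g.2⟩, ?_, ?_⟩
        · intro c hc
          show ofSubtype (g : Perm {a // a ∈ X}) c = c
          exact ofSubtype_apply_of_not_mem _ (by
            rwa [Set.mem_compl_iff, Finset.mem_coe] at hc)
        · intro i
          show ofSubtype (g : Perm {a // a ∈ X}) (a i) = b i
          rw [ofSubtype_apply_of_mem _ (haX' i)]
          exact congrArg Subtype.val (hg i)
    have hdvd : 17160 ∣ Nat.card G := by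
      have := mt_dvd G 4 (by rw [hα]; norm_num) h4
      rw [hα] at this
      exact this
    obtain ⟨h, hh⟩ := hdvd
    apply four_trans_case hα G hG h4 hprim hne
    have hh2 : h ∣ 181440 := by
      rw [hh, show (6227020800 : ℕ) = 34320 * 181440 by norm_num, show 2 * (17160 * h) = 34320 * h by ring] at hdiv
      exact Nat.dvd_of_mul_dvd_mul_left (by norm_num) hdiv
    have h7h : ¬ 7 ∣ h := by
      intro h5; apply h7; rw [hh]; exact h5.mul_left _
    have hKh : 11 * f * Nat.card (Sylow 11 K) = 110 * h := by
      rw [← hf2]
      omega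
    have hfn : f * Nat.card (Sylow 11 K) = 10 * h := by nlinarith
    rcases Nat.even_or_odd h with he | ho
    · obtain ⟨c, hc⟩ := he
      rw [hh, hc]
      exact ⟨c, by ring⟩
    · exfalso
      have h405 : h ∣ 405 := by
        rw [show (181440 : ℕ) = 64 * 2835 by norm_num] at hh2
        have c1 : Nat.Coprime h 64 := by
          rw [show (64 : ℕ) = 2 ^ 6 by norm_num]
          exact (Nat.coprime_two_right.mpr ho).pow_right 6
        have h5 := c1.dvd_of_dvd_mul_left hh2
        rw [show (2835 : ℕ) = 7 * 405 by norm_num] at h5
        have c2 : Nat.Coprime h 7 := ((Nat.Prime.coprime_iff_not_dvd (by norm_num)).mpr h7h).symm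
        exact c2.dvd_of_dvd_mul_left h5
      generalize Nat.card (Sylow 11 K) = n at hfn hf3
      have hn11 : n % 11 = 1 := hf3
      have hlist : ∀ h ∈ Nat.divisors 405, ¬ (10 * h % 11 = 1) ∧ ¬ (10 * h % 11 = 5) := by decide +kernel
      obtain ⟨h5, h6⟩ := hlist h (Nat.mem_divisors.mpr ⟨h405, by norm_num⟩)
      rcases hf15 with rfl | rfl
      · omega
      · omega

end A

end CfsgLib.H7PG
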