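import Mathlib
import Cfsg.Agent.LibH7PG7
import Cfsg.Agent.LibH7Bert

set_option autoImplicit false

namespace CfsgLib.H7PG

open Equiv Equiv.Perm MulAction

theorem transfer {m : ℕ} (x y : alternatingGroup (Fin m)) :
    ∃ (β : Type) (_ : Fintype β) (_ : DecidableEq β) (x₁ y₁ : Perm β),
      Fintype.card β ≤ m ∧ orderOf x₁ = orderOf x ∧ orderOf y₁ = orderOf y ∧
      (∀ a, a ∈ x₁.support ∨ a ∈ y₁.support) ∧
      Subgroup.closure ({x₁, y₁} : Set (Perm β)) ≤ alternatingGroup β ∧
      Nonempty (Subgroup.closure ({x, y} : Set (alternatingGroup (Fin m))) ≃*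
        Subgroup.closure ({x₁, y₁} : Set (Perm β))) := by
  classical
  let P : Fin m → Prop := fun a => (x : Perm (Fin m)) a ≠ a ∨ (y : Perm (Fin m)) a ≠ a
  have hx : ∀ a, P ((x : Perm (Fin m)) a) ↔ P a := by
    intro a
    by_cases h : (x : Perm (Fin m)) a = a
    · rw [h]
    · have h1 : P a := Or.inl h
      have h2 : P ((x : Perm (Fin m)) a) := Or.inl (fun h3 => h ((x : Perm (Fin m)).injective h3))
      exact ⟨fun _ => h1, fun _ => h2⟩
  have hy : ∀ a, P ((y : Perm (Fin m)) a) ↔ P a := by
    intro a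
    by_cases h : (y : Perm (Fin m)) a = a
    · rw [h]
    · have h1 : P a := Or.inr h
      have h2 : P ((y : Perm (Fin m)) a) := Or.inr (fun h3 => h ((y : Perm (Fin m)).injective h3))
      exact ⟨fun _ => h1, fun _ => h2⟩
  let x₁ : Perm {a // P a} := (x : Perm (Fin m)).subtypePerm hx
  let y₁ : Perm {a // P a} := (y : Perm (Fin m)).subtypePerm hy
  have hox : ofSubtype x₁ = (x : Perm (Fin m)) := ofSubtype_subtypePerm hx (fun a ha => Or.inl ha)
  have hoy : ofSubtype y₁ = (y : Perm (Fin m)) := ofSubtype_subtypePerm hy (fun a ha => Or.inr ha)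
  refine ⟨{a // P a}, inferInstance, inferInstance, x₁, y₁, ?_, ?_, ?_, ?_, ?_, ?_⟩
  · have := Fintype.card_subtype_le P
    rwa [Fintype.card_fin] at this
  · rw [← orderOf_injective (Perm.ofSubtype : Perm {a // P a} →* Perm (Fin m)) ofSubtype_injective x₁, hox,
      Subgroup.orderOf_coe]
  · rw [← orderOf_injective (Perm.ofSubtype : Perm {a // P a} →* Perm (Fin m)) ofSubtype_injective y₁, hoy,
      Subgroup.orderOf_coe]
  · rintro ⟨a, ha⟩
    rcases ha with ha | ha
    · left
      rw [mem_support]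
      intro h
      exact ha (congrArg Subtype.val h)
    · right
      rw [mem_support]
      intro h
      exact ha (congrArg Subtype.val h)
  · rw [Subgroup.closure_le]
    intro z hz
    rw [Set.mem_insert_iff, Set.mem_singleton_iff] at hz
    rw [SetLike.mem_coe, mem_alternatingGroup]
    rcases hz with rfl | rfl
    · rw [← sign_ofSubtype, hox]; exact mem_alternatingGroup.mp x.2
    · rw [← sign_ofSubtype, hoy]; exact mem_alternatingGroup.mp y.2
  · have h1 : (Subgroup.closure ({x, y} : Set (alternatingGroup (Fin m)))).map (alternatingGroup (Fin m)).subtype =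
        (Subgroup.closure ({x₁, y₁} : Set (Perm {a // P a}))).map (Perm.ofSubtype : Perm {a // P a} →* Perm (Fin m)) := by
      rw [MonoidHom.map_closure, MonoidHom.map_closure, Set.image_pair, Set.image_pair, hox, hoy]
      rfl
    exact ⟨((Subgroup.closure ({x, y} : Set (alternatingGroup (Fin m)))).equivMapOfInjective
      (alternatingGroup (Fin m)).subtype (Subgroup.subtype_injective _)).trans
      ((MulEquiv.subgroupCongr h1).trans
        ((Subgroup.closure ({x₁, y₁} : Set (Perm {a // P a}))).equivMapOfInjective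
          (Perm.ofSubtype : Perm {a // P a} →* Perm (Fin m)) ofSubtype_injective).symm)⟩

section B
variable {β : Type} [Fintype β] [DecidableEq β]

theorem fin_alt (G : Subgroup (Perm β)) (h5 : 5 ≤ Fintype.card β) (h : G = alternatingGroup β) :
    ∃ d : ℕ, 5 ≤ d ∧ Nonempty (G ≃* alternatingGroup (Fin d)) :=
  ⟨Fintype.card β, h5, ⟨(MulEquiv.subgroupCongr h).trans (Equiv.altCongrHom (Fintype.equivFin β))⟩⟩

theorem basic (G : Subgroup (Perm β)) (hG : G ≤ alternatingGroup β) {x y : Perm β} (hx : x ∈ G) (hy : y ∈ G)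
    {p q : ℕ} (hp : p.Prime) (hq : q.Prime) (hpq : p < q) (hxo : orderOf x = p) (hyo : orderOf y = q)
    (hβ : Fintype.card β ≤ 2 * p) (hcov : ∀ a, a ∈ x.support ∨ a ∈ y.support) :
    IsPreprimitive G β ∧ q ≤ Fintype.card β ∧ (q + 3 ≤ Fintype.card β → G = alternatingGroup β) ∧
    (Fintype.card β < 2 * p → x.IsCycle ∧ x.support.card = p ∧
      (p + 3 ≤ Fintype.card β → G = alternatingGroup β)) := by
  classical
  have hyc : y.IsCycle := isCycle_of_prime_order' (by rw [hyo]; exact hq) (by rw [hyo]; omega)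
  have hys : y.support.card = q := by rw [← hyc.orderOf, hyo]
  haveI : IsPretransitive G β := trans_of G hx hy hp hpq hxo hyc hys hβ hcov
  have hprim : IsPreprimitive G β := prim_of_cycle G hy hyc (by rw [hys]; exact hq) (by rw [hys]; omega)
  refine ⟨hprim, ?_, ?_, ?_⟩
  · rw [← hys]; exact Finset.card_le_univ _
  · intro h
    exact le_antisymm hG (CfsgLib.H6.jordan_prime_cycle G hprim hq h hyc hys hy)
  · intro h
    have hxc : x.IsCycle := isCycle_of_prime_order' (by rw [hxo]; exact hp) (by rw [hxo]; exact h)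
    have hxs : x.support.card = p := by rw [← hxc.orderOf, hxo]
    exact ⟨hxc, hxs, fun h' => le_antisymm hG (CfsgLib.H6.jordan_prime_cycle G hprim hp h' hxc hxs hx)⟩

end B

theorem main (m : ℕ) (hm : 5 ≤ m) :
    ∃ p q : ℕ, p.Prime ∧ q.Prime ∧ m ≤ 2 * p ∧ p < q ∧ q ≤ m ∧
      ∀ (β : Type) [Fintype β] [DecidableEq β] (x y : Perm β), Fintype.card β ≤ m → orderOf x = p → orderOf y = q →
        (∀ a, a ∈ x.support ∨ a ∈ y.support) → Subgroup.closure ({x, y} : Set (Perm β)) ≤ alternatingGroup β →
        ∃ d : ℕ, 5 ≤ d ∧ Nonempty (Subgroup.closure ({x, y} : Set (Perm β)) ≃* alternatingGroup (Fin d)) := by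
  have hxm : ∀ (β : Type) (x y : Perm β), x ∈ Subgroup.closure ({x, y} : Set (Perm β)) :=
    fun β x y => Subgroup.subset_closure (by simp)
  have hym : ∀ (β : Type) (x y : Perm β), y ∈ Subgroup.closure ({x, y} : Set (Perm β)) :=
    fun β x y => Subgroup.subset_closure (by simp)
  rcases Nat.lt_or_ge m 7 with h7 | h7
  · refine ⟨3, 5, by norm_num, by norm_num, by omega, by norm_num, by omega, ?_⟩
    intro β _ _ x y hβ hx hy hcov hG
    obtain ⟨hprim, hq, _, h⟩ := basic _ hG (hxm β x y) (hym β x y) (by norm_num) (by norm_num) (by norm_num) hx hy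
      (by omega) hcov
    rcases Nat.lt_or_ge (Fintype.card β) 6 with h6 | h6
    · obtain ⟨_, hxs, _⟩ := h h6
      apply fin_alt _ hq
      exact le_antisymm hG (alternatingGroup_le_of_isPreprimitive_of_isThreeCycle_mem hprim
        (card_support_eq_three_iff.mp hxs) (hxm β x y))
    · exact alt6 (by omega) _ hG (hxm β x y) (hym β x y) hx hy hcov
  rcases Nat.lt_or_ge m 11 with h11 | h11
  · refine ⟨5, 7, by norm_num, by norm_num, by omega, by norm_num, by omega, ?_⟩
    intro β _ _ x y hβ hx hy hcov hG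
    obtain ⟨hprim, hq, h', h⟩ := basic _ hG (hxm β x y) (hym β x y) (by norm_num) (by norm_num) (by norm_num) hx hy
      (by omega) hcov
    apply fin_alt _ (by omega)
    rcases Nat.lt_or_ge (Fintype.card β) 10 with h10 | h10
    · rcases Nat.lt_or_ge (Fintype.card β) 8 with h8 | h8
      · exact alt7 (by omega) _ hG (hxm β x y) (hym β x y) hx hy
      · exact (h h10).2.2 h8
    · exact h' h10
  rcases Nat.lt_or_ge m 15 with h15 | h15
  · refine ⟨7, 11, by norm_num, by norm_num, by omega, by norm_num, by omega, ?_⟩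
    intro β _ _ x y hβ hx hy hcov hG
    obtain ⟨hprim, hq, h', h⟩ := basic _ hG (hxm β x y) (hym β x y) (by norm_num) (by norm_num) (by norm_num) hx hy
      (by omega) hcov
    apply fin_alt _ (by omega)
    rcases Nat.lt_or_ge (Fintype.card β) 14 with h14 | h14
    · exact (h h14).2.2 (by omega)
    · exact h' h14
  rcases Nat.lt_or_ge m 17 with h17 | h17
  · refine ⟨11, 13, by norm_num, by norm_num, by omega, by norm_num, by omega, ?_⟩
    intro β _ _ x y hβ hx hy hcov hG
    obtain ⟨hprim, hq, h', h⟩ := basic _ hG (hxm β x y) (hym β x y) (by norm_num) (by norm_num) (by norm_num) hx hy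
      (by omega) hcov
    apply fin_alt _ (by omega)
    rcases Nat.lt_or_ge (Fintype.card β) 14 with h14 | h14
    · exact alt13 (by omega) _ hG (hxm β x y) (hym β x y) hx hy
    · exact (h (by omega)).2.2 h14
  rcases Nat.lt_or_ge m 18 with h18 | h18
  · refine ⟨11, 17, by norm_num, by norm_num, by omega, by norm_num, by omega, ?_⟩
    intro β _ _ x y hβ hx hy hcov hG
    obtain ⟨hprim, hq, h', h⟩ := basic _ hG (hxm β x y) (hym β x y) (by norm_num) (by norm_num) (by norm_num) hx hy
      (by omega) hcov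
    apply fin_alt _ (by omega)
    exact (h (by omega)).2.2 (by omega)
  obtain ⟨p, q, hp, hq, h1, h2, h3⟩ := CfsgLib.H7Bert.two_primes (m / 2) (by omega)
  refine ⟨p, q, hp, hq, by omega, by omega, by omega, ?_⟩
  intro β _ _ x y hβ hx hy hcov hG
  obtain ⟨hprim, hq', h', h⟩ := basic _ hG (hxm β x y) (hym β x y) hp hq (by omega) hx hy (by omega) hcov
  apply fin_alt _ (by omega)
  exact (h (by omega)).2.2 (by omega)

end CfsgLib.H7PG
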