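import Cfsg.Agent.EqBase
import Mathlib
import Cfsg.Agent.LibPSolv19
import Cfsg.Agent.LibCoprime
import Cfsg.Agent.LibTransPC
import Cfsg.Agent.LibH7Sylow

set_option autoImplicit false
set_option linter.unusedSectionVars false

/-!
`p`-solvable groups in which each maximal subgroup is `p`-nilpotent or of prime index: the shape
`p', p, p', p`.
-/

namespace CfsgLib.H7PLen

open Subgroup Cfsg
open scoped Pointwise

universe u

/-- A chain of normal subgroups of shape `p', p, p', p`. -/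
def Sh (p : ℕ) (G : Type u) [Group G] : Prop :=
  ∃ A B C : Subgroup G, A.Normal ∧ B.Normal ∧ C.Normal ∧ A ≤ B ∧ B ≤ C ∧ ¬ p ∣ Nat.card A ∧
    (∃ k : ℕ, A.relIndex B = p ^ k) ∧ ¬ p ∣ B.relIndex C ∧ ∃ k : ℕ, C.index = p ^ k

def HM (p : ℕ) (G : Type u) [Group G] : Prop :=
  ∀ M : Subgroup G, IsCoatom M →
    (∃ K : Subgroup ↥M, K.Normal ∧ ¬ p ∣ Nat.card K ∧ ∃ k : ℕ, K.index = p ^ k) ∨ (M.index).Prime

variable {p : ℕ} [hp : Fact p.Prime] {G : Type u} [Group G] [Finite G]

theorem HM.quotient (h : HM p G) (N : Subgroup G) [N.Normal] : HM p (G ⧸ N) := by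
  intro M hM
  have hsurj := QuotientGroup.mk'_surjective N
  have hM' : IsCoatom (M.comap (QuotientGroup.mk' N)) :=
    Subgroup.isCoatom_comap_of_surjective hsurj hM
  rcases h _ hM' with ⟨K, hK⟩ | h1
  · left
    have hK' : CfsgLib.TransPC.IsNPC p K := hK
    set f : M.comap (QuotientGroup.mk' N) →* M := (QuotientGroup.mk' N).subgroupComap M with hf
    have hfs : Function.Surjective f := by
      rintro ⟨y, hy⟩
      obtain ⟨x, rfl⟩ := hsurj y
      exact ⟨⟨x, hy⟩, rfl⟩
    exact ⟨_, hK'.map f hfs⟩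
  · right
    rwa [Subgroup.index_comap_of_surjective _ hsurj] at h1

theorem relIndex_comap' {H : Type*} [Group H] (f : G →* H) (hf : Function.Surjective f) (A B : Subgroup H) :
    (A.comap f).relIndex (B.comap f) = A.relIndex B := by
  rw [Subgroup.relIndex_comap, Subgroup.map_comap_eq_self_of_surjective hf]

theorem relIndex_inf_dvd' {A1 A2 B1 B2 : Subgroup G} [A1.Normal] [A2.Normal] :
    (A1 ⊓ A2).relIndex (B1 ⊓ B2) ∣ A1.relIndex B1 * A2.relIndex B2 := by
  rw [← Subgroup.relIndex_inf_mul_relIndex]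
  apply mul_dvd_mul
  · have h : A1.relIndex (B1 ⊓ (A2 ⊓ B2)) ∣ A1.relIndex B1 := CfsgLib.PSolv19.relIndex_inf_dvd
    rwa [← inf_left_comm] at h
  · have h : A2.relIndex (B2 ⊓ B1) ∣ A2.relIndex B2 := CfsgLib.PSolv19.relIndex_inf_dvd
    rwa [inf_comm] at h

/-- the shape passes to subdirect products -/
theorem Sh.of_inf (N1 N2 : Subgroup G) [N1.Normal] [N2.Normal] (h : N1 ⊓ N2 = ⊥) (h1 : Sh p (G ⧸ N1))
    (h2 : Sh p (G ⧸ N2)) : Sh p G := by
  obtain ⟨A1, B1, C1, hA1, hB1, hC1, hAB1, hBC1, hcA1, ⟨k1, hk1⟩, hBC1', ⟨m1, hm1⟩⟩ := h1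
  obtain ⟨A2, B2, C2, hA2, hB2, hC2, hAB2, hBC2, hcA2, ⟨k2, hk2⟩, hBC2', ⟨m2, hm2⟩⟩ := h2
  have s1 := QuotientGroup.mk'_surjective N1
  have s2 := QuotientGroup.mk'_surjective N2
  refine ⟨A1.comap (QuotientGroup.mk' N1) ⊓ A2.comap (QuotientGroup.mk' N2),
    B1.comap (QuotientGroup.mk' N1) ⊓ B2.comap (QuotientGroup.mk' N2),
    C1.comap (QuotientGroup.mk' N1) ⊓ C2.comap (QuotientGroup.mk' N2), inferInstance, inferInstance, inferInstance,
    inf_le_inf (comap_mono hAB1) (comap_mono hAB2), inf_le_inf (comap_mono hBC1) (comap_mono hBC2), ?_, ?_, ?_, ?_⟩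
  · -- order of A
    have e : Nat.card ↥(A1.comap (QuotientGroup.mk' N1) ⊓ A2.comap (QuotientGroup.mk' N2)) ∣ Nat.card A1 * Nat.card A2 := by
      rw [← relIndex_bot_left, ← h]
      have h3 := relIndex_inf_dvd' (A1 := N1) (A2 := N2) (B1 := A1.comap (QuotientGroup.mk' N1))
        (B2 := A2.comap (QuotientGroup.mk' N2))
      have h4 : N1.relIndex (A1.comap (QuotientGroup.mk' N1)) = Nat.card A1 := by
        have := relIndex_comap' (QuotientGroup.mk' N1) s1 ⊥ A1
        rwa [MonoidHom.comap_bot, QuotientGroup.ker_mk', relIndex_bot_left] at this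
      have h5 : N2.relIndex (A2.comap (QuotientGroup.mk' N2)) = Nat.card A2 := by
        have := relIndex_comap' (QuotientGroup.mk' N2) s2 ⊥ A2
        rwa [MonoidHom.comap_bot, QuotientGroup.ker_mk', relIndex_bot_left] at this
      rwa [h4, h5] at h3
    intro hd
    rcases hp.out.dvd_mul.1 (hd.trans e) with h3 | h3
    · exact hcA1 h3
    · exact hcA2 h3
  · have e := relIndex_inf_dvd' (A1 := A1.comap (QuotientGroup.mk' N1)) (A2 := A2.comap (QuotientGroup.mk' N2))
      (B1 := B1.comap (QuotientGroup.mk' N1)) (B2 := B2.comap (QuotientGroup.mk' N2))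
    rw [relIndex_comap' _ s1, relIndex_comap' _ s2, hk1, hk2, ← pow_add, Nat.dvd_prime_pow hp.out] at e
    obtain ⟨j, -, hj⟩ := e
    exact ⟨j, hj⟩
  · have e := relIndex_inf_dvd' (A1 := B1.comap (QuotientGroup.mk' N1)) (A2 := B2.comap (QuotientGroup.mk' N2))
      (B1 := C1.comap (QuotientGroup.mk' N1)) (B2 := C2.comap (QuotientGroup.mk' N2))
    rw [relIndex_comap' _ s1, relIndex_comap' _ s2] at e
    intro hd
    rcases hp.out.dvd_mul.1 (hd.trans e) with h3 | h3
    · exact hBC1' h3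
    · exact hBC2' h3
  · have e := relIndex_inf_dvd' (A1 := C1.comap (QuotientGroup.mk' N1)) (A2 := C2.comap (QuotientGroup.mk' N2))
      (B1 := ⊤) (B2 := ⊤)
    rw [inf_top_eq, relIndex_top_right, relIndex_top_right, relIndex_top_right,
      index_comap_of_surjective _ s1, index_comap_of_surjective _ s2, hm1, hm2, ← pow_add,
      Nat.dvd_prime_pow hp.out] at e
    obtain ⟨j, -, hj⟩ := e
    exact ⟨j, hj⟩

theorem card_comap_mk' (N : Subgroup G) [N.Normal] (A : Subgroup (G ⧸ N)) :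
    Nat.card ↥(A.comap (QuotientGroup.mk' N)) = Nat.card N * Nat.card A := by
  have hle : N ≤ A.comap (QuotientGroup.mk' N) := by
    intro x hx
    rw [mem_comap]
    have : QuotientGroup.mk' N x = 1 := (QuotientGroup.eq_one_iff x).2 hx
    rw [this]; exact one_mem _
  have h1 := CfsgLib.Coprime.card_mul_relIndex hle
  have h2 := relIndex_comap' (QuotientGroup.mk' N) (QuotientGroup.mk'_surjective N) ⊥ A
  rw [MonoidHom.comap_bot, QuotientGroup.ker_mk', relIndex_bot_left] at h2
  rw [h2] at h1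
  exact h1.symm

/-- the shape lifts along a normal `p'`-subgroup -/
theorem Sh.of_pPrime (N : Subgroup G) [N.Normal] (hN : ¬ p ∣ Nat.card N) (h : Sh p (G ⧸ N)) : Sh p G := by
  obtain ⟨A1, B1, C1, hA1, hB1, hC1, hAB1, hBC1, hcA1, ⟨k1, hk1⟩, hBC1', ⟨m1, hm1⟩⟩ := h
  have s1 := QuotientGroup.mk'_surjective N
  refine ⟨A1.comap (QuotientGroup.mk' N), B1.comap (QuotientGroup.mk' N), C1.comap (QuotientGroup.mk' N),
    inferInstance, inferInstance, inferInstance, comap_mono hAB1, comap_mono hBC1, ?_, ⟨k1, ?_⟩, ?_, ⟨m1, ?_⟩⟩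
  · rw [card_comap_mk', hp.out.dvd_mul]
    tauto
  · rw [relIndex_comap' _ s1, hk1]
  · rwa [relIndex_comap' _ s1]
  · rw [index_comap_of_surjective _ s1, hm1]

/-- the shape lifts along a normal `p`-subgroup when the `p'`-core of the quotient is trivial -/
theorem Sh.of_p (N : Subgroup G) [N.Normal] (hN : IsPGroup p N)
    (hO : ∀ L : Subgroup (G ⧸ N), L.Normal → ¬ p ∣ Nat.card L → L = ⊥) (h : Sh p (G ⧸ N)) : Sh p G := by
  obtain ⟨A1, B1, C1, hA1, hB1, hC1, hAB1, hBC1, hcA1, ⟨k1, hk1⟩, hBC1', ⟨m1, hm1⟩⟩ := h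
  have s1 := QuotientGroup.mk'_surjective N
  have hA : A1 = ⊥ := hO A1 hA1 hcA1
  subst hA
  rw [relIndex_bot_left] at hk1
  obtain ⟨n, hn⟩ := IsPGroup.iff_card.1 hN
  refine ⟨⊥, B1.comap (QuotientGroup.mk' N), C1.comap (QuotientGroup.mk' N),
    inferInstance, inferInstance, inferInstance, bot_le, comap_mono hBC1, ?_, ⟨n + k1, ?_⟩, ?_, ⟨m1, ?_⟩⟩
  · rw [card_bot]; exact hp.out.one_lt.ne' ∘ Nat.dvd_one.1
  · rw [relIndex_bot_left, card_comap_mk', hn, hk1, pow_add]
  · rwa [relIndex_comap' _ s1]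
  · rw [index_comap_of_surjective _ s1, hm1]

/-- when `G ⧸ N` is `p`-nilpotent with `N` a `p`-group -/
theorem Sh.of_npc (N : Subgroup G) [N.Normal] (hN : IsPGroup p N)
    (h : ∃ K : Subgroup (G ⧸ N), CfsgLib.TransPC.IsNPC p K) : Sh p G := by
  obtain ⟨K, hKn, hK, m, hm⟩ := h
  have s1 := QuotientGroup.mk'_surjective N
  obtain ⟨n, hn⟩ := IsPGroup.iff_card.1 hN
  have hle : N ≤ K.comap (QuotientGroup.mk' N) := by
    intro x hx
    rw [mem_comap]
    have : QuotientGroup.mk' N x = 1 := (QuotientGroup.eq_one_iff x).2 hx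
    rw [this]; exact one_mem _
  refine ⟨⊥, N, K.comap (QuotientGroup.mk' N), inferInstance, inferInstance, inferInstance, bot_le, hle, ?_,
    ⟨n, ?_⟩, ?_, ⟨m, ?_⟩⟩
  · rw [card_bot]; exact hp.out.one_lt.ne' ∘ Nat.dvd_one.1
  · rw [relIndex_bot_left, hn]
  · have := relIndex_comap' (QuotientGroup.mk' N) s1 ⊥ K
    rw [MonoidHom.comap_bot, QuotientGroup.ker_mk', relIndex_bot_left] at this
    rwa [this]
  · rw [index_comap_of_surjective _ s1, hm]

/-- Frattini argument: a normal `p`-subgroup inside the Frattini subgroup. -/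
theorem core_quotient (N : Subgroup G) [N.Normal] (hN : IsPGroup p N) (hNΦ : N ≤ frattini G)
    (hO : ∀ L : Subgroup G, L.Normal → ¬ p ∣ Nat.card L → L = ⊥) (L : Subgroup (G ⧸ N)) (hL : L.Normal)
    (hLc : ¬ p ∣ Nat.card L) : L = ⊥ := by
  set L' := L.comap (QuotientGroup.mk' N) with hL'
  have hNL : N ≤ L' := by
    intro x hx
    rw [hL', mem_comap]
    have : QuotientGroup.mk' N x = 1 := (QuotientGroup.eq_one_iff x).2 hx
    rw [this]; exact one_mem _
  have hrel : N.relIndex L' = Nat.card L := by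
    have := relIndex_comap' (QuotientGroup.mk' N) (QuotientGroup.mk'_surjective N) ⊥ L
    rwa [MonoidHom.comap_bot, QuotientGroup.ker_mk', relIndex_bot_left] at this
  obtain ⟨n, hn⟩ := IsPGroup.iff_card.1 hN
  have hcop : (Nat.card N).Coprime (Nat.card L) := by
    rw [hn]; exact ((Nat.Prime.coprime_iff_not_dvd hp.out).2 hLc).pow_left n
  obtain ⟨Q, hQL, hQc, hNQ, hNQ'⟩ := CfsgLib.Coprime.sz_exists hNL (by rw [normalizer_eq_top]; exact le_top)
    (by rw [hrel]; exact hcop)
  have hQn : Q.Normal := by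
    rw [← normalizer_eq_top_iff, ← top_le_iff]
    have h1 : normalizer (Q : Set G) ⊔ frattini G = ⊤ := by
      rw [eq_top_iff]
      intro g _
      obtain ⟨x, hx, hxg⟩ := CfsgLib.Coprime.sz_conj (N := N) (H := Q) (K := MulAut.conj g • Q)
        (by rw [normalizer_eq_top]; exact le_top) (by rw [hQc, hrel]; exact hcop.symm)
        (Or.inr (by
          haveI := hN.isNilpotent
          infer_instance)) (by
          rw [hNQ']
          rintro _ ⟨y, hy, rfl⟩
          have hLn : L'.Normal := inferInstance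
          exact hLn.conj_mem y (hQL hy) g) (CfsgLib.Coprime.card_conj_smul g Q)
      have h2 : x⁻¹ * g ∈ normalizer (Q : Set G) := by
        apply CfsgLib.Coprime.mem_normalizer_of_conj_smul_eq
        rw [map_mul, mul_smul, ← hxg, ← mul_smul, ← map_mul, inv_mul_cancel, map_one, one_smul]
      have h3 : g = x * (x⁻¹ * g) := by group
      rw [h3]
      exact mul_mem (mem_sup_right (hNΦ hx)) (mem_sup_left h2)
    exact (frattini_nongenerating h1).ge
  have hQb : Q = ⊥ := hO Q hQn (by rw [hQc, hrel]; exact hLc)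
  rw [← Subgroup.card_eq_one, ← hrel, ← hQc, hQb, card_bot]

theorem main : ∀ (n : ℕ) (G : Type u) [Group G] [Finite G], Nat.card G = n → IsPSolvable p G → HM p G → Sh p G := by
  intro n
  induction n using Nat.strong_induction_on with
  | _ n ih =>
  intro G _ _ hn hs hm
  have IH : ∀ N : Subgroup G, ∀ [N.Normal], N ≠ ⊥ → Sh p (G ⧸ N) := by
    intro N _ hN
    refine ih (Nat.card (G ⧸ N)) ?_ (G ⧸ N) rfl (CfsgLib.PSolv19.psolv_quotient hp.out hs N) (hm.quotient N)
    rw [← hn, N.card_eq_card_quotient_mul_card_subgroup]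
    have h1 : 1 < Nat.card N := by
      rw [Finite.one_lt_card_iff_nontrivial]
      exact (Subgroup.nontrivial_iff_ne_bot N).2 hN
    exact lt_mul_of_one_lt_right Nat.card_pos h1
  by_cases htriv : (⊤ : Subgroup G) = ⊥
  · refine ⟨⊥, ⊥, ⊥, inferInstance, inferInstance, inferInstance, le_rfl, le_rfl, ?_, ⟨0, ?_⟩, ?_, ⟨0, ?_⟩⟩
    · rw [card_bot]; exact hp.out.one_lt.ne' ∘ Nat.dvd_one.1
    · rw [relIndex_self, pow_zero]
    · rw [relIndex_self]; exact hp.out.one_lt.ne' ∘ Nat.dvd_one.1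
    · rw [← htriv, index_top, pow_zero]
  by_cases hO : ∀ L : Subgroup G, L.Normal → ¬ p ∣ Nat.card L → L = ⊥
  swap
  · push Not at hO
    obtain ⟨L, hL, hLc, hLne⟩ := hO
    exact Sh.of_pPrime L hLc (IH L hLne)
  by_cases hU : ∃ N1 N2 : Subgroup G, N1.Normal ∧ N2.Normal ∧ N1 ≠ ⊥ ∧ N2 ≠ ⊥ ∧ N1 ⊓ N2 = ⊥
  · obtain ⟨N1, N2, h1, h2, h3, h4, h5⟩ := hU
    exact Sh.of_inf N1 N2 h5 (IH N1 h3) (IH N2 h4)
  obtain ⟨N, hNn, hN0, -, hmin⟩ := CfsgLib.PSolv19.exists_min (⊤ : Subgroup G) htriv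
  have hNp : IsPGroup p N := by
    rcases CfsgLib.PSolv19.psolv_minNormal hs hNn hN0 hmin with h | h
    · exact h
    · exact absurd (hO N hNn h) hN0
  by_cases hΦ : N ≤ frattini G
  · exact Sh.of_p N hNp (core_quotient N hNp hΦ hO) (IH N hN0)
  -- N is complemented
  obtain ⟨M, hM, hNM⟩ : ∃ M : Subgroup G, IsCoatom M ∧ ¬ N ≤ M := by
    by_contra hcon
    push Not at hcon
    apply hΦ
    unfold frattini Order.radical
    exact le_iInf fun M => le_iInf fun hM => hcon M hM
  have hNs : Group.IsSolvable N := by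
    haveI := hNp.isNilpotent
    infer_instance
  obtain ⟨-, -, hNc, -, -⟩ := CfsgLib.Cores.minimal_normal_elementary N hN0 hmin hNs
  have hNcomm : ∀ a ∈ N, ∀ b ∈ N, a * b = b * a := fun a ha b hb =>
    congrArg Subtype.val (hNc.is_comm.comm ⟨a, ha⟩ ⟨b, hb⟩)
  have hsup : N ⊔ M = ⊤ := by
    by_contra h
    exact hNM (le_sup_left.trans (hM.le_iff.1 (le_sup_right : M ≤ N ⊔ M) |>.resolve_left h).le)
  have hinfn : ∀ C : Subgroup G, C.Normal → C ≤ centralizer (N : Set G) → (C ⊓ M).Normal := by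
    intro C hC hCN
    rw [← normalizer_eq_top_iff, ← top_le_iff, ← hsup]
    refine sup_le ?_ ?_
    · intro g hg
      rw [mem_normalizer_iff]
      intro x
      have hgc : ∀ y ∈ C, g * y * g⁻¹ = y := by
        intro y hy
        rw [(mem_centralizer_iff.1 (hCN hy)) g hg, mul_inv_cancel_right]
      constructor
      · rintro ⟨hx1, hx2⟩
        rw [hgc x hx1]; exact ⟨hx1, hx2⟩
      · rintro ⟨hx1, hx2⟩
        have h1 : x ∈ C := by
          have := hC.conj_mem _ hx1 g⁻¹
          have e : g⁻¹ * (g * x * g⁻¹) * g⁻¹⁻¹ = x := by group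
          rwa [e] at this
        rw [hgc x h1] at hx2
        exact ⟨h1, hx2⟩
    · intro g hg
      rw [mem_normalizer_iff]
      intro x
      constructor
      · rintro ⟨hx1, hx2⟩
        exact ⟨hC.conj_mem x hx1 g, M.mul_mem (M.mul_mem hg hx2) (M.inv_mem hg)⟩
      · rintro ⟨hx1, hx2⟩
        have h1 := hC.conj_mem _ hx1 g⁻¹
        have h2 := M.mul_mem (M.mul_mem (M.inv_mem hg) hx2) hg
        have e : g⁻¹ * (g * x * g⁻¹) * g⁻¹⁻¹ = x := by group
        have e2 : g⁻¹ * (g * x * g⁻¹) * g = x := by group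
        rw [e] at h1
        rw [e2] at h2
        exact ⟨h1, h2⟩
  have hNcen : N ≤ centralizer (N : Set G) := by
    intro x hx
    rw [mem_centralizer_iff]
    exact fun y hy => hNcomm y hy x hx
  have hinf : N ⊓ M = ⊥ := by
    rcases hmin (N ⊓ M) (hinfn N hNn hNcen) inf_le_left with h | h
    · exact h
    · exact absurd (inf_eq_left.1 h) hNM
  rcases hm M hM with ⟨K, hK⟩ | hprime
  · -- M is p-nilpotent
    have hK' : CfsgLib.TransPC.IsNPC p K := hK
    refine Sh.of_npc N hNp ⟨_, hK'.map ((QuotientGroup.mk' N).comp M.subtype) ?_⟩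
    intro y
    obtain ⟨g, rfl⟩ := QuotientGroup.mk'_surjective N y
    have hg : g ∈ N ⊔ M := by rw [hsup]; trivial
    rw [← SetLike.mem_coe, normal_mul] at hg
    obtain ⟨a, ha, m, hm, rfl⟩ := hg
    refine ⟨⟨m, hm⟩, ?_⟩
    change QuotientGroup.mk' N m = QuotientGroup.mk' N (a * m)
    rw [map_mul]
    have : QuotientGroup.mk' N a = 1 := (QuotientGroup.eq_one_iff a).2 ha
    rw [this, one_mul]
  · -- M has prime index
    have hcardN : Nat.card N = M.index := by
      have h1 := CfsgLib.Coprime.card_sup_mul_card_inf (N := N) (H := M) (by rw [normalizer_eq_top]; exact le_top)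
      rw [sup_comm, hsup, inf_comm, hinf, card_bot, mul_one, card_top] at h1
      have h2 := M.card_mul_index
      rw [h1] at h2
      exact (Nat.eq_of_mul_eq_mul_left Nat.card_pos h2).symm
    have hpN : Nat.card N = p := by
      obtain ⟨k, hk⟩ := IsPGroup.iff_card.1 hNp
      rw [hcardN] at hk
      rw [hcardN]
      rw [hk] at hprime ⊢
      have hk1 : k = 1 := by
        by_contra hne
        rcases Nat.lt_or_gt_of_ne hne with h | h
        · have : k = 0 := by omega
          rw [this, pow_zero] at hprime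
          exact Nat.not_prime_one hprime
        · exact Nat.Prime.not_prime_pow h hprime
      rw [hk1, pow_one]
    set C := centralizer (N : Set G) with hC
    have hCn : C.Normal := inferInstance
    have hCM : C ⊓ M = ⊥ := by
      by_contra hne
      apply hU
      refine ⟨N, C ⊓ M, hNn, hinfn C hCn le_rfl, hN0, hne, ?_⟩
      rw [eq_bot_iff, ← hinf]
      exact inf_le_inf_left _ inf_le_right
    have hCN : C = N := by
      apply le_antisymm _ hNcen
      intro c hc
      have hg : c ∈ N ⊔ M := by rw [hsup]; trivial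
      rw [← SetLike.mem_coe, normal_mul] at hg
      obtain ⟨a, ha, m, hm, rfl⟩ := hg
      have h1 : m ∈ C ⊓ M := by
        refine ⟨?_, hm⟩
        have h2 : a⁻¹ * (a * m) ∈ C := C.mul_mem (C.inv_mem (hNcen ha)) hc
        rwa [inv_mul_cancel_left] at h2
      rw [hCM, mem_bot] at h1
      rw [h1]; simpa using ha
    have hidx : C.index ∣ p - 1 := by
      have h1 : C.index = C.relIndex (normalizer (N : Set G)) := by
        rw [normalizer_eq_top, relIndex_top_right]
      have h2 : IsCyclic N := isCyclic_of_prime_card hpN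
      have h3 := CfsgLib.H7.relIndex_centralizer_dvd_of_cyclic N
      rw [hpN, Nat.totient_prime hp.out] at h3
      rw [h1]; exact h3
    have hnp : ¬ p ∣ N.index := by
      rw [← hCN]
      intro hd
      have h1 := hd.trans hidx
      have h2 := hp.out.one_lt
      have h3 := Nat.le_of_dvd (by omega) h1
      omega
    refine Sh.of_npc N hNp ⟨⊤, inferInstance, ?_, 0, ?_⟩
    · rw [card_top, ← index_eq_card]; exact hnp
    · rw [index_top, pow_zero]

end CfsgLib.H7PLen
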