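import Cfsg.Agent.LibPCyc2
import Cfsg.Agent.LibLE10

set_option autoImplicit false

/-! 2-groups with generalized quaternion quotients by maximal subgroups of the centre (helper7). -/

namespace CfsgLib.H7Quat

open Cfsg Subgroup

open scoped commutatorElement

universe u

structure GQ {Q : Type u} [Group Q] (n : ℕ) (a b : Q) : Prop where
  one_le : 1 ≤ n
  oa : orderOf a = 2 ^ (n + 1)
  ob : orderOf b = 4
  oab : orderOf (a * b) = 4
  hb : b ^ 2 = a ^ (2 ^ n)
  conj : b * a * b⁻¹ = a⁻¹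
  gen : ∀ q : Q, ∃ i j : ℕ, q = b ^ j * a ^ i
  nm : b ∉ zpowers a

theorem struct {Q : Type u} [Group Q] [Finite Q] (hQ : IsPGroup 2 Q) (hna : ¬ IsMulCommutative Q)
    (h : ∃! x : Q, orderOf x = 2) : ∃ (n : ℕ) (a b : Q), GQ n a b := by
  obtain ⟨x, hx, hxu⟩ := h
  have hH : ∀ H : Subgroup Q, Nat.card H = 2 → H = zpowers x := by
    intro H hH
    obtain ⟨h, hh⟩ : ∃ h ∈ H, h ≠ 1 := by
      have h1 : H ≠ ⊥ := by
        intro h2; rw [h2, Subgroup.card_bot] at hH; omega
      obtain ⟨⟨h, hh⟩, h2⟩ := Subgroup.ne_bot_iff_exists_ne_one.mp h1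
      exact ⟨h, hh, fun h3 => h2 (Subtype.ext h3)⟩
    have h1 : orderOf h ∣ 2 := by
      rw [← hH]
      have := orderOf_dvd_natCard (⟨h, hh.1⟩ : H)
      rwa [Subgroup.orderOf_mk] at this
    have h2 : orderOf h = 2 := by
      rcases (Nat.dvd_prime Nat.prime_two).mp h1 with h3 | h3
      · exact absurd (orderOf_eq_one_iff.mp h3) hh.2
      · exact h3
    have h3 : h = x := hxu h h2
    symm
    apply Subgroup.eq_of_le_of_card_ge (zpowers_le.mpr (h3 ▸ hh.1))
    rw [hH, Nat.card_zpowers, hx]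
  have hcyc : ¬ IsCyclic Q := by
    intro h1
    apply hna
    exact ⟨⟨fun a b => by
      haveI := h1
      letI := IsCyclic.commGroup (α := Q)
      exact mul_comm a b⟩⟩
  rcases CfsgLib.PCyc.cyclic_or_quaternion hQ (fun H K h1 h2 => (hH H h1).trans (hH K h2).symm) with h1 | ⟨n, ⟨e⟩⟩
  · exact absurd h1 hcyc
  have hn : 1 ≤ n := by
    by_contra h1
    have h2 : n = 0 := by omega
    subst h2
    apply hcyc
    haveI : IsCyclic (QuaternionGroup (2 ^ 0)) := by
      rw [pow_zero]; exact QuaternionGroup.quaternionGroup_one_isCyclic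
    exact isCyclic_of_surjective e.symm e.symm.surjective
  haveI : NeZero (2 ^ n) := ⟨pow_ne_zero _ two_ne_zero⟩
  haveI : NeZero (2 * 2 ^ n) := ⟨mul_ne_zero two_ne_zero (pow_ne_zero _ two_ne_zero)⟩
  have hoa : orderOf (e.symm (QuaternionGroup.a 1)) = 2 ^ (n + 1) := by
    rw [MulEquiv.orderOf_eq, QuaternionGroup.orderOf_a_one, pow_succ, mul_comm]
  have hconj : e.symm (QuaternionGroup.xa 0) * e.symm (QuaternionGroup.a 1) *
      (e.symm (QuaternionGroup.xa 0))⁻¹ = (e.symm (QuaternionGroup.a 1))⁻¹ := by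
    rw [mul_inv_eq_iff_eq_mul, ← map_inv, ← map_mul, ← map_mul]
    congr 1
    rw [QuaternionGroup.xa_mul_a, show (QuaternionGroup.a 1 : QuaternionGroup (2 ^ n))⁻¹ = QuaternionGroup.a (-1) from rfl,
      QuaternionGroup.a_mul_xa]
    congr 1
    ring
  refine ⟨n, e.symm (QuaternionGroup.a 1), e.symm (QuaternionGroup.xa 0), hn, hoa, ?_, ?_, ?_, hconj, ?_, ?_⟩
  · rw [MulEquiv.orderOf_eq]; exact QuaternionGroup.orderOf_xa 0
  · rw [← map_mul, MulEquiv.orderOf_eq, QuaternionGroup.a_mul_xa]; exact QuaternionGroup.orderOf_xa _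
  · rw [← map_pow, ← map_pow, QuaternionGroup.xa_sq, QuaternionGroup.a_one_pow]
  · intro q
    obtain ⟨r, rfl⟩ := e.symm.surjective q
    cases r with
    | a i =>
      refine ⟨i.val, 0, ?_⟩
      rw [pow_zero, one_mul, ← map_pow, QuaternionGroup.a_one_pow, ZMod.natCast_zmod_val]
    | xa i =>
      refine ⟨i.val, 1, ?_⟩
      rw [pow_one, ← map_pow, QuaternionGroup.a_one_pow, ZMod.natCast_zmod_val, ← map_mul,
        QuaternionGroup.xa_mul_a, zero_add]
  · rintro ⟨i, hi⟩
    change (e.symm (QuaternionGroup.a 1)) ^ i = _ at hi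
    have h1 : e.symm (QuaternionGroup.a 1) = (e.symm (QuaternionGroup.a 1))⁻¹ := by
      conv_rhs => rw [← hconj, ← hi]
      rw [((Commute.refl (e.symm (QuaternionGroup.a 1))).zpow_left i).eq, mul_inv_cancel_right]
    have h2 : (e.symm (QuaternionGroup.a 1)) ^ 2 = 1 := by
      rw [pow_two]
      nth_rewrite 1 [h1]
      exact inv_mul_cancel _
    have h3 := orderOf_dvd_of_pow_eq_one h2
    rw [hoa] at h3
    have h4 := Nat.le_of_dvd two_pos h3
    have h5 : 2 ^ 2 ≤ 2 ^ (n + 1) := Nat.pow_le_pow_right two_pos (by omega)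
    omega

/-- the derived subgroup is cyclic -/
theorem commutator_cyclic {S : Type u} [Group S] [Finite S] (hS : IsPGroup 2 S) (D : Subgroup S)
    [D.Normal] (hDZ : D ≤ center S) (hna : ¬ IsMulCommutative (S ⧸ D))
    (h : ∃! x : S ⧸ D, orderOf x = 2) : IsCyclic (commutator S) := by
  obtain ⟨n, a', b', hq⟩ := struct (hS.to_quotient D) hna h
  obtain ⟨x, rfl⟩ := QuotientGroup.mk_surjective a'
  obtain ⟨y, rfl⟩ := QuotientGroup.mk_surjective b'
  obtain ⟨d, hd, hyx⟩ : ∃ d ∈ D, y * x * y⁻¹ = x⁻¹ * d := by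
    refine ⟨x * (y * x * y⁻¹), ?_, by rw [inv_mul_cancel_left]⟩
    have h1 := hq.conj
    rw [← QuotientGroup.mk_mul, ← QuotientGroup.mk_inv, ← QuotientGroup.mk_mul, ← QuotientGroup.mk_inv] at h1
    have h2 := QuotientGroup.eq.mp h1.symm
    rwa [inv_inv] at h2
  have hdc : ∀ d ∈ D, ∀ s : S, d * s = s * d := fun d hd s => (mem_center_iff.mp (hDZ hd) s).symm
  obtain ⟨c, hc⟩ : ∃ c, c = x * y * x⁻¹ * y⁻¹ := ⟨_, rfl⟩
  have hc2 : c = x * x * d⁻¹ := by
    have h1 : y * x⁻¹ * y⁻¹ = (y * x * y⁻¹)⁻¹ := by group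
    calc c = x * (y * x⁻¹ * y⁻¹) := by rw [hc]; group
      _ = x * (d⁻¹ * x) := by rw [h1, hyx, mul_inv_rev, inv_inv]
      _ = x * (x * d⁻¹) := by rw [hdc d⁻¹ (inv_mem hd) x]
      _ = _ := by group
  have hcx : x * c * x⁻¹ = c := by
    rw [hc2]
    calc x * (x * x * d⁻¹) * x⁻¹ = x * x * (x * d⁻¹) * x⁻¹ := by group
      _ = x * x * (d⁻¹ * x) * x⁻¹ := by rw [hdc d⁻¹ (inv_mem hd) x]
      _ = _ := by group
  have hcy : y * c * y⁻¹ = c⁻¹ := by
    rw [hc2]
    calc y * (x * x * d⁻¹) * y⁻¹ = (y * x * y⁻¹) * (y * x * y⁻¹) * (y * d⁻¹ * y⁻¹) := by group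
      _ = (x⁻¹ * d) * (x⁻¹ * d) * (d⁻¹ * y * y⁻¹) := by rw [hyx, hdc d⁻¹ (inv_mem hd) y]
      _ = (x⁻¹ * d) * x⁻¹ := by group
      _ = (d * x⁻¹) * x⁻¹ := by rw [hdc d hd]
      _ = _ := by group
  have hgen : ∀ s : S, ∃ i j : ℕ, ∃ e ∈ D, s = y ^ j * x ^ i * e := by
    intro s
    obtain ⟨i, j, hs⟩ := hq.gen (QuotientGroup.mk s)
    refine ⟨i, j, (y ^ j * x ^ i)⁻¹ * s, ?_, by rw [mul_inv_cancel_left]⟩
    rw [← QuotientGroup.mk_pow, ← QuotientGroup.mk_pow, ← QuotientGroup.mk_mul] at hs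
    exact QuotientGroup.eq.mp hs.symm
  have hN : (zpowers c).Normal := by
    rw [← Subgroup.normalizer_eq_top_iff, eq_top_iff]
    intro s _
    obtain ⟨i, j, e, he, rfl⟩ := hgen s
    have hx : x ∈ normalizer ((zpowers c : Subgroup S) : Set S) := by
      rw [Subgroup.mem_normalizer_iff]
      have hk : ∀ k : ℤ, x * c ^ k * x⁻¹ = c ^ k := fun k => by rw [← conj_zpow, hcx]
      intro t
      constructor
      · rintro ⟨k, rfl⟩
        exact ⟨k, (hk k).symm⟩
      · rintro ⟨k, ht⟩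
        change c ^ k = _ at ht
        refine ⟨k, ?_⟩
        change c ^ k = t
        have h1 := hk k
        rw [mul_inv_eq_iff_eq_mul] at h1
        rw [eq_mul_inv_iff_mul_eq, ← h1] at ht
        exact mul_left_cancel ht
    have hy : y ∈ normalizer ((zpowers c : Subgroup S) : Set S) := by
      rw [Subgroup.mem_normalizer_iff]
      have hk : ∀ k : ℤ, y * c ^ k * y⁻¹ = c ^ (-k) := fun k => by rw [← conj_zpow, hcy, inv_zpow']
      intro t
      constructor
      · rintro ⟨k, rfl⟩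
        exact ⟨-k, (hk k).symm⟩
      · rintro ⟨k, ht⟩
        change c ^ k = _ at ht
        refine ⟨-k, ?_⟩
        change c ^ (-k) = t
        have h1 := hk (-k)
        rw [neg_neg, ht] at h1
        exact mul_left_cancel (mul_right_cancel h1)
    have he' : e ∈ normalizer ((zpowers c : Subgroup S) : Set S) := by
      apply Subgroup.centralizer_le_normalizer
      rw [mem_centralizer_iff]
      intro t _
      exact (hdc e he t).symm
    exact mul_mem (mul_mem (pow_mem hy j) (pow_mem hx i)) he'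
  have hle : commutator S ≤ zpowers c := by
    haveI := hN
    rw [commutator_def, commutator_le]
    intro s _ t _
    obtain ⟨i, j, e, he, rfl⟩ := hgen s
    obtain ⟨k, l, f, hf, rfl⟩ := hgen t
    rw [← QuotientGroup.eq_one_iff (N := zpowers c)]
    have hxy : Commute (QuotientGroup.mk x : S ⧸ zpowers c) (QuotientGroup.mk y) := by
      have h1 : (QuotientGroup.mk (x * y * x⁻¹ * y⁻¹) : S ⧸ zpowers c) = 1 := by
        rw [QuotientGroup.eq_one_iff, ← hc]; exact mem_zpowers c
      simp only [QuotientGroup.mk_mul, QuotientGroup.mk_inv] at h1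
      rw [mul_inv_eq_one, mul_inv_eq_iff_eq_mul] at h1
      exact h1
    have hcen : ∀ e ∈ D, ∀ s : S ⧸ zpowers c, Commute (QuotientGroup.mk e) s := by
      intro e he s
      obtain ⟨s, rfl⟩ := QuotientGroup.mk_surjective s
      change QuotientGroup.mk e * QuotientGroup.mk s = QuotientGroup.mk s * QuotientGroup.mk e
      rw [← QuotientGroup.mk_mul, ← QuotientGroup.mk_mul, hdc e he s]
    have hcomm : Commute (QuotientGroup.mk (y ^ j * x ^ i * e) : S ⧸ zpowers c)
        (QuotientGroup.mk (y ^ l * x ^ k * f)) := by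
      simp only [QuotientGroup.mk_mul, QuotientGroup.mk_pow]
      have hX : ∀ (p q : ℕ), Commute ((QuotientGroup.mk y : S ⧸ zpowers c) ^ p) ((QuotientGroup.mk x) ^ q) :=
        fun p q => (hxy.symm.pow_left p).pow_right q
      have hY : ∀ (p q : ℕ), Commute ((QuotientGroup.mk y : S ⧸ zpowers c) ^ p) ((QuotientGroup.mk y) ^ q) :=
        fun p q => ((Commute.refl _).pow_left p).pow_right q
      have hXX : ∀ (p q : ℕ), Commute ((QuotientGroup.mk x : S ⧸ zpowers c) ^ p) ((QuotientGroup.mk x) ^ q) :=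
        fun p q => ((Commute.refl _).pow_left p).pow_right q
      refine Commute.mul_left (Commute.mul_left ?_ ?_) (hcen e he _)
      · exact ((hY j l).mul_right (hX j k)).mul_right (hcen f hf _).symm
      · exact (((hX l i).symm).mul_right (hXX i k)).mul_right (hcen f hf _).symm
    have h2 : ∀ (A B : S), (QuotientGroup.mk ⁅A, B⁆ : S ⧸ zpowers c) =
        QuotientGroup.mk A * QuotientGroup.mk B * (QuotientGroup.mk A)⁻¹ * (QuotientGroup.mk B)⁻¹ := fun A B => rfl
    rw [h2, hcomm.eq, mul_inv_cancel_right, mul_inv_cancel]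
  exact isCyclic_of_injective (Subgroup.inclusion hle) (Subgroup.inclusion_injective hle)

theorem s3201 {S : Type u} [Group S] [Finite S]
    (hS : IsPGroup 2 S) (n : ℕ) (hn : 2 ≤ n) (C : Fin n → Subgroup ↥(Subgroup.center S))
    (hCmax : ∀ i, IsCoatom (C i)) (hCint : ⨅ i, C i = ⊥)
    (hCq : ∀ i, ∃ (_ : ((C i).map (Subgroup.center S).subtype).Normal),
      ¬ IsMulCommutative (S ⧸ (C i).map (Subgroup.center S).subtype) ∧
      ∃! x : S ⧸ (C i).map (Subgroup.center S).subtype, orderOf x = 2) :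
    ∃ E Q : Subgroup S, (E ≤ center S ∧ E ⊓ Q = ⊥ ∧ E ⊔ Q = ⊤) ∧ (∀ z ∈ center S, z ^ 2 = 1) ∧
      ¬ IsMulCommutative ↥Q ∧ ∃! x : ↥Q, orderOf x = 2 := by
  classical
  have hmem : ∀ i (z : center S), (z : S) ∈ (C i).map (center S).subtype ↔ z ∈ C i := by
    intro i z
    constructor
    · rintro ⟨w, hw, hwz⟩
      rwa [← Subtype.ext hwz]
    · intro h; exact ⟨z, h, rfl⟩
  have hleZ : ∀ i, (C i).map (center S).subtype ≤ center S := fun i => map_subtype_le _
  have hZsq : ∀ z ∈ center S, z ^ 2 = 1 := by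
    intro z hz
    have h1 : (⟨z, hz⟩ : center S) ^ 2 ∈ (⨅ i, C i) := by
      rw [Subgroup.mem_iInf]
      intro i
      exact (frattini_le_coatom (hCmax i)) (CfsgLib.LE.pow_mem_frattini (p := 2) (hS.to_subgroup _) _)
    rw [hCint, mem_bot] at h1
    exact congrArg Subtype.val h1
  -- two elements outside a coatom
  have hcoset : ∀ i, ∀ u v : center S, u ∉ C i → v ∉ C i → v * u ∈ C i := by
    intro i u v hu hv
    have h1 : C i ⊔ zpowers u = ⊤ := by
      apply (hCmax i).2
      refine lt_of_le_of_ne le_sup_left ?_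
      intro h
      apply hu
      rw [h]; exact mem_sup_right (mem_zpowers u)
    have hu2 : u * u = 1 := by
      have := hZsq u u.2
      rw [pow_two] at this
      exact Subtype.ext this
    have h2 : v ∈ C i ⊔ zpowers u := by rw [h1]; exact mem_top _
    haveI : (C i).Normal := ⟨fun n hn g => by
      have h4 : g * n = n * g := Subtype.ext (mem_center_iff.mp n.2 g)
      rw [h4, mul_inv_cancel_right]; exact hn⟩
    obtain ⟨c, hc, _, ⟨l, rfl⟩, h3⟩ := mem_sup_of_normal_left.mp h2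
    rcases Int.even_or_odd l with ⟨m, hm⟩ | ⟨m, hm⟩
    · exfalso
      apply hv
      have h4 : u ^ l = 1 := by
        rw [hm, zpow_add, ← (Commute.refl u).mul_zpow, hu2, one_zpow]
      rw [← h3]
      change c * u ^ l ∈ C i
      rw [h4, mul_one]; exact hc
    · have h4 : u ^ l = u := by
        rw [hm, zpow_add, zpow_mul, zpow_two, hu2, one_zpow, one_mul, zpow_one]
      rw [← h3]
      change c * u ^ l * u ∈ C i
      rw [h4, mul_assoc, hu2, mul_one]; exact hc
  -- squares of noncentral elements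
  have hexz : ∀ i, ∃ z ∈ center S, z ∉ (C i).map (center S).subtype := by
    intro i
    by_contra h
    push Not at h
    apply (hCmax i).1
    rw [eq_top_iff]
    intro z _
    exact (hmem i z).mp (h z z.2)
  have hord2 : ∀ i (h : ((C i).map (center S).subtype).Normal), ∀ s : S,
      s ∉ (C i).map (center S).subtype → s ^ 2 ∈ (C i).map (center S).subtype →
      orderOf (QuotientGroup.mk s : S ⧸ (C i).map (center S).subtype) = 2 := by
    intro i h s h1 h2
    apply orderOf_eq_prime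
    · rw [← QuotientGroup.mk_pow]; exact (QuotientGroup.eq_one_iff _).mpr h2
    · intro h3; exact h1 ((QuotientGroup.eq_one_iff _).mp h3)
  have hclaim3 : ∀ i (h : ((C i).map (center S).subtype).Normal), ∀ s : S,
      orderOf (QuotientGroup.mk s : S ⧸ (C i).map (center S).subtype) = 2 → s ∈ center S := by
    intro i h s hs
    obtain ⟨hn', hna, huniq⟩ := hCq i
    obtain ⟨z, hz, hz'⟩ := hexz i
    have h1 := hord2 i h z hz' (by rw [hZsq z hz]; exact one_mem _)
    have h2 : (QuotientGroup.mk s : S ⧸ (C i).map (center S).subtype) = QuotientGroup.mk z :=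
      huniq.unique hs h1
    have h3 := hleZ i (QuotientGroup.eq.mp h2.symm)
    exact ((center S).mul_mem_cancel_left (inv_mem hz)).mp h3
  have hclaim1 : ∀ s : S, s ∉ center S → ∀ i, s ^ 2 ∉ (C i).map (center S).subtype := by
    intro s hs i h
    obtain ⟨hn', hna, huniq⟩ := hCq i
    exact hs (hclaim3 i hn' s (hord2 i hn' s (fun h1 => hs (hleZ i h1)) h))
  have hclaim2 : ∀ s t : S, s ∉ center S → t ∉ center S → s ^ 2 ∈ center S → t ^ 2 ∈ center S →
      s ^ 2 = t ^ 2 := by
    intro s t hs ht hs2 ht2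
    have h1 : (⟨s ^ 2, hs2⟩ : center S) * ⟨t ^ 2, ht2⟩ ∈ (⨅ i, C i) := by
      rw [Subgroup.mem_iInf]
      intro i
      apply hcoset i
      · intro h; exact hclaim1 t ht i ((hmem i _).mpr h)
      · intro h; exact hclaim1 s hs i ((hmem i _).mpr h)
    rw [hCint, mem_bot] at h1
    have h2 : s ^ 2 * t ^ 2 = 1 := congrArg Subtype.val h1
    have h3 := hZsq _ ht2
    rw [pow_two] at h3
    rw [eq_inv_of_mul_eq_one_left h2]
    exact inv_eq_of_mul_eq_one_left h3
  obtain ⟨i0⟩ : Nonempty (Fin n) := ⟨⟨0, by omega⟩⟩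
  obtain ⟨hN, hna, huniq⟩ := hCq i0
  obtain ⟨m, a', b', hq⟩ := struct (hS.to_quotient _) hna huniq
  obtain ⟨a, rfl⟩ := QuotientGroup.mk_surjective a'
  obtain ⟨b, rfl⟩ := QuotientGroup.mk_surjective b'
  have hZq : ∀ z ∈ center S, orderOf (QuotientGroup.mk z : S ⧸ (C i0).map (center S).subtype) ∣ 2 := by
    intro z hz
    apply orderOf_dvd_of_pow_eq_one
    rw [← QuotientGroup.mk_pow, hZsq z hz]; rfl
  have hnc : ∀ s : S, 4 ∣ orderOf (QuotientGroup.mk s : S ⧸ (C i0).map (center S).subtype) → s ∉ center S := by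
    intro s h1 h2
    have := Nat.le_of_dvd two_pos (h1.trans (hZq s h2))
    omega
  have h4 : ∀ s : S, orderOf (QuotientGroup.mk s : S ⧸ (C i0).map (center S).subtype) = 4 →
      s ∉ center S ∧ s ^ 2 ∈ center S := by
    intro s hs
    refine ⟨hnc s (by rw [hs]), ?_⟩
    apply hclaim3 i0 hN
    rw [QuotientGroup.mk_pow, orderOf_pow' _ two_ne_zero, hs]; rfl
  have hpw : orderOf (QuotientGroup.mk (a ^ 2 ^ (m - 1)) : S ⧸ (C i0).map (center S).subtype) = 4 := by
    rw [QuotientGroup.mk_pow, orderOf_pow' _ (pow_ne_zero _ two_ne_zero), hq.oa]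
    have h5 : (2 : ℕ) ^ (m + 1) = 2 ^ (m - 1) * 4 := by
      rw [show (4 : ℕ) = 2 ^ 2 by norm_num, ← pow_add]
      congr 1
      have := hq.one_le
      omega
    rw [h5, Nat.gcd_eq_right (Dvd.intro _ rfl), Nat.mul_div_cancel_left _ (pow_pos two_pos _)]
  have hpow : (a ^ 2 ^ (m - 1)) ^ 2 = a ^ 2 ^ m := by
    rw [← pow_mul, ← pow_succ]
    congr 2
    have := hq.one_le
    omega
  have ha := h4 _ hpw
  have hb := h4 b hq.ob
  have hab := h4 (a * b) (by rw [QuotientGroup.mk_mul]; exact hq.oab)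
  have e1 : b ^ 2 = a ^ 2 ^ m := by
    rw [← hpow]; exact hclaim2 b _ hb.1 ha.1 hb.2 ha.2
  have e2 : (a * b) ^ 2 = b ^ 2 := hclaim2 _ b hab.1 hb.1 hab.2 hb.2
  have e3 : a ^ 2 ^ (m + 1) = 1 := by
    have h5 := hZsq _ ha.2
    rw [hpow] at h5
    rw [pow_succ, pow_mul]; exact h5
  have e4 : a * b * a = b := by
    rw [pow_two, pow_two] at e2
    have : (a * b * a) * b = b * b := by rw [← e2]; group
    exact mul_right_cancel this
  have e5 : b * a = a⁻¹ * b := by
    rw [eq_inv_mul_iff_mul_eq, ← mul_assoc]; exact e4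
  have e5' : ∀ i : ℤ, b * a ^ i = a ^ (-i) * b := by
    intro i
    have h5 : b * a ^ i * b⁻¹ = (b * a * b⁻¹) ^ i := (conj_zpow).symm
    have h6 : b * a * b⁻¹ = a⁻¹ := by rw [e5, mul_inv_cancel_right]
    rw [h6, inv_zpow', mul_inv_eq_iff_eq_mul] at h5
    exact h5
  have hnf : ∀ q ∈ closure {a, b}, ∃ i : ℤ, q = a ^ i ∨ q = a ^ i * b := by
    intro q hq'
    induction hq' using Subgroup.closure_induction with
    | mem x hx =>
      rcases hx with rfl | rfl
      · exact ⟨1, Or.inl (zpow_one _).symm⟩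
      · exact ⟨0, Or.inr (by rw [zpow_zero, one_mul])⟩
    | one => exact ⟨0, Or.inl (zpow_zero _).symm⟩
    | mul x y _ _ hx hy =>
      obtain ⟨i, rfl | rfl⟩ := hx <;> obtain ⟨j, rfl | rfl⟩ := hy
      · exact ⟨i + j, Or.inl (zpow_add _ _ _).symm⟩
      · exact ⟨i + j, Or.inr (by rw [zpow_add, mul_assoc])⟩
      · exact ⟨i - j, Or.inr (by rw [mul_assoc, e5', ← mul_assoc, ← zpow_add, sub_eq_add_neg])⟩
      · refine ⟨i - j + 2 ^ m, Or.inl ?_⟩
        rw [mul_assoc, ← mul_assoc b, e5', mul_assoc, ← pow_two, e1, ← mul_assoc, ← zpow_add,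
          ← zpow_natCast, ← zpow_add]
        congr 1
    | inv x _ hx =>
      obtain ⟨i, rfl | rfl⟩ := hx
      · exact ⟨-i, Or.inl (zpow_neg _ _).symm⟩
      · refine ⟨-2 ^ m + i, Or.inr ?_⟩
        have h5 : b⁻¹ = a ^ (-2 ^ m : ℤ) * b := by
          have h6 : b⁻¹ = (b ^ 2)⁻¹ * b := by rw [pow_two]; group
          rw [h6, e1, zpow_neg]
          congr 2
          rw [← zpow_natCast]
          congr 1
        rw [mul_inv_rev, ← zpow_neg, h5, mul_assoc, e5', neg_neg, ← mul_assoc, ← zpow_add]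
  have hbot : (C i0).map (center S).subtype ⊓ closure {a, b} = ⊥ := by
    rw [eq_bot_iff]
    rintro q ⟨hq1, hq2⟩
    obtain ⟨i, rfl | rfl⟩ := hnf q hq2
    · have h5 := (QuotientGroup.eq_one_iff (N := (C i0).map (center S).subtype) _).mpr hq1
      rw [QuotientGroup.mk_zpow] at h5
      have h6 := orderOf_dvd_iff_zpow_eq_one.mpr h5
      rw [hq.oa] at h6
      obtain ⟨k, hk⟩ := h6
      rw [mem_bot, hk, zpow_mul, zpow_natCast, e3, one_zpow]
    · exfalso
      have h5 := (QuotientGroup.eq_one_iff (N := (C i0).map (center S).subtype) _).mpr hq1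
      rw [QuotientGroup.mk_mul, QuotientGroup.mk_zpow] at h5
      apply hq.nm
      rw [eq_inv_of_mul_eq_one_right h5]
      exact inv_mem (zpow_mem (mem_zpowers _) _)
  have hgen : ∀ s : S, ∃ q ∈ closure {a, b}, (QuotientGroup.mk s : S ⧸ (C i0).map (center S).subtype) =
      QuotientGroup.mk q := by
    intro s
    obtain ⟨i, j, hs⟩ := hq.gen (QuotientGroup.mk s)
    refine ⟨b ^ j * a ^ i, mul_mem (pow_mem (subset_closure (by simp)) _) (pow_mem (subset_closure (by simp)) _), ?_⟩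
    rw [hs, QuotientGroup.mk_mul, QuotientGroup.mk_pow, QuotientGroup.mk_pow]
  refine ⟨(C i0).map (center S).subtype, closure {a, b}, ⟨hleZ i0, hbot, ?_⟩, hZsq, ?_, ?_⟩
  · rw [eq_top_iff]
    intro s _
    obtain ⟨q, hq1, hq2⟩ := hgen s
    have h5 := QuotientGroup.eq.mp hq2.symm
    have h6 : s = q * (q⁻¹ * s) := by group
    rw [h6]
    exact mul_mem (mem_sup_right hq1) (mem_sup_left h5)
  · intro hcomm
    have h5 := congrArg Subtype.val (hcomm.is_comm.comm (⟨a, subset_closure (by simp)⟩ : ↥(closure {a, b}))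
      ⟨b, subset_closure (by simp)⟩)
    change a * b = b * a at h5
    have h6 : a ^ 2 = 1 := by
      rw [h5, mul_assoc, ← pow_two] at e4
      exact mul_eq_left.mp e4
    have h7 : (QuotientGroup.mk a : S ⧸ (C i0).map (center S).subtype) ^ 2 = 1 := by
      rw [← QuotientGroup.mk_pow, h6]; rfl
    have h8 := orderOf_dvd_of_pow_eq_one h7
    rw [hq.oa] at h8
    have h9 := Nat.le_of_dvd two_pos h8
    have h10 : 2 ^ 2 ≤ 2 ^ (m + 1) := Nat.pow_le_pow_right two_pos (by have := hq.one_le; omega)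
    omega
  · let f : ↥(closure {a, b}) →* S ⧸ (C i0).map (center S).subtype :=
      (QuotientGroup.mk' _).comp (closure {a, b}).subtype
    have hfi : Function.Injective f := by
      rw [injective_iff_map_eq_one]
      intro q hq1
      have h5 : (q : S) ∈ (C i0).map (center S).subtype ⊓ closure {a, b} :=
        ⟨(QuotientGroup.eq_one_iff _).mp hq1, q.2⟩
      rw [hbot, mem_bot] at h5
      exact Subtype.ext h5
    have hfs : Function.Surjective f := by
      intro y
      obtain ⟨s, rfl⟩ := QuotientGroup.mk_surjective y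
      obtain ⟨q, hq1, hq2⟩ := hgen s
      exact ⟨⟨q, hq1⟩, hq2.symm⟩
    let e := MulEquiv.ofBijective f ⟨hfi, hfs⟩
    obtain ⟨x, hx, hxu⟩ := huniq
    refine ⟨e.symm x, ?_, ?_⟩
    · change orderOf (e.symm x) = 2
      rw [MulEquiv.orderOf_eq]; exact hx
    · intro y hy
      rw [MulEquiv.eq_symm_apply]
      apply hxu
      change orderOf (e y) = 2
      rw [MulEquiv.orderOf_eq]; exact hy

end CfsgLib.H7Quat
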