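import Cfsg.Agent.LibFusionH12
import Cfsg.Agent.LibComp2
import Cfsg.Agent.LibFgHallCnt

set_option autoImplicit false

/-! Solvable groups whose non-abelian subgroups are self-normalizing (helper7). -/

namespace CfsgLib.H7SelfN

open Cfsg Subgroup CfsgLib.FusionH12 CfsgLib.Comp2

universe u
variable {G : Type u} [Group G]

theorem fwd [Finite G] [Group.IsSolvable G] (hnn : ¬ Group.IsNilpotent G)
    (h : ∀ H : Subgroup G, ¬ IsMulCommutative H → Subgroup.normalizer (H : Set G) = H) :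
    ∃ (x : G) (A : Subgroup G) (p : ℕ), p.Prime ∧ A.Normal ∧ IsMulCommutative A ∧ (∃ k : ℕ, orderOf x = p ^ k) ∧
      ¬ p ∣ Nat.card A ∧ (Subgroup.zpowers x).IsComplement' A ∧ x ^ p ∈ Subgroup.center G ∧
      ∀ a : G, a ∈ A → a ≠ 1 → x * a * x⁻¹ ≠ a := by
  haveI : Nontrivial G := by
    by_contra hcon
    rw [not_nontrivial_iff_subsingleton] at hcon
    exact hnn inferInstance
  obtain ⟨M, p, hMn, hp, hMi⟩ := CfsgLib.FgHallCnt.exists_normal_prime_index (H := G)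
  haveI := hMn
  haveI hpf : Fact p.Prime := ⟨hp⟩
  have hMtop : M ≠ ⊤ := by
    intro h1; rw [h1, Subgroup.index_top] at hMi; exact hp.one_lt.ne hMi
  have hMc : ∀ a ∈ M, ∀ b ∈ M, a * b = b * a := by
    by_contra hcon
    have h1 : ¬ IsMulCommutative M := by
      intro h2
      apply hcon
      intro a ha b hb
      exact congrArg Subtype.val (h2.is_comm.comm (⟨a, ha⟩ : M) ⟨b, hb⟩)
    have h2 := h M h1
    rw [Subgroup.normalizer_eq_top] at h2
    exact hMtop h2.symm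
  obtain ⟨k, m, hpm, hkm⟩ := Nat.exists_eq_pow_mul_and_not_dvd (Nat.card_pos (α := G)).ne' p hp.ne_one
  let A : Subgroup G :=
    { carrier := {g | g ∈ M ∧ g ^ m = 1}
      one_mem' := ⟨one_mem _, one_pow _⟩
      mul_mem' := by
        rintro a b ⟨ha, ha2⟩ ⟨hb, hb2⟩
        refine ⟨mul_mem ha hb, ?_⟩
        rw [(show Commute a b from hMc a ha b hb).mul_pow, ha2, hb2, one_mul]
      inv_mem' := by
        rintro a ⟨ha, ha2⟩
        exact ⟨inv_mem ha, by rw [inv_pow, ha2, inv_one]⟩ }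
  have hA : ∀ g, g ∈ A ↔ g ∈ M ∧ g ^ m = 1 := fun g => Iff.rfl
  haveI hAn : A.Normal := by
    refine ⟨fun a ha g => ?_⟩
    rw [hA] at ha ⊢
    refine ⟨hMn.conj_mem a ha.1 g, ?_⟩
    rw [conj_pow, ha.2, mul_one, mul_inv_cancel]
  have hAM : A ≤ M := fun g hg => ((hA g).mp hg).1
  have hAc : ∀ a ∈ A, ∀ b ∈ A, a * b = b * a := fun a ha b hb => hMc a (hAM ha) b (hAM hb)
  have hAp : ∀ g ∈ A, ∀ j : ℕ, g ^ p ^ j = 1 → g = 1 := by
    intro g hg j hj
    have h1 : orderOf g ∣ m := orderOf_dvd_of_pow_eq_one ((hA g).mp hg).2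
    have h2 : orderOf g ∣ p ^ j := orderOf_dvd_of_pow_eq_one hj
    have h3 : Nat.Coprime m (p ^ j) := Nat.Coprime.pow_right j ((Nat.Prime.coprime_iff_not_dvd hp).mpr hpm).symm
    exact orderOf_eq_one_iff.mp (Nat.eq_one_of_dvd_coprimes h3 h1 h2)
  have hAcard : ¬ p ∣ Nat.card A := by
    intro h1
    obtain ⟨a, ha⟩ := exists_prime_orderOf_dvd_card' (G := A) p h1
    have h2 : (a : G) ^ p ^ 1 = 1 := by
      have := pow_orderOf_eq_one a
      rw [ha] at this
      rw [pow_one]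
      exact congrArg Subtype.val this
    have h3 : a = 1 := Subtype.ext (hAp a a.2 1 h2)
    rw [h3, orderOf_one] at ha
    exact hp.one_lt.ne ha
  have hq : ∀ g : G, g ^ p ^ (k + 1) ∈ A := by
    intro g
    rw [hA]
    have h1 : g ^ p ∈ M := by rw [← hMi]; exact Subgroup.pow_index_mem M g
    have h2 : g ^ p ^ (k + 1) = (g ^ p) ^ p ^ k := by rw [← pow_mul, pow_succ, mul_comm]
    refine ⟨by rw [h2]; exact pow_mem h1 _, ?_⟩
    rw [h2, ← pow_mul, ← hkm, ← pow_mul, mul_comm, pow_mul, pow_card_eq_one', one_pow]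
  have hqp : IsPGroup p (G ⧸ A) := by
    intro g
    obtain ⟨g, rfl⟩ := QuotientGroup.mk_surjective g
    exact ⟨k + 1, by rw [← QuotientGroup.mk_pow]; exact (QuotientGroup.eq_one_iff _).mpr (hq g)⟩
  obtain ⟨P⟩ : Nonempty (Sylow p G) := inferInstance
  have hAP1 : ∀ g, g ∈ A → g ∈ (P : Subgroup G) → g = 1 := by
    intro g h1 h2
    obtain ⟨j, hj⟩ := P.2 ⟨g, h2⟩
    exact hAp g h1 j (congrArg Subtype.val hj)
  have hAP : A ⊔ (P : Subgroup G) = ⊤ := by
    rw [← Subgroup.index_eq_one]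
    have h1 : (A ⊔ (P : Subgroup G)).index ∣ A.index := Subgroup.index_dvd_of_le le_sup_left
    have h2 : (A ⊔ (P : Subgroup G)).index ∣ (P : Subgroup G).index := Subgroup.index_dvd_of_le le_sup_right
    obtain ⟨n, hn⟩ := IsPGroup.iff_card.mp hqp
    have h3 : A.index = p ^ n := by rw [Subgroup.index_eq_card]; exact hn
    rw [h3] at h1
    obtain ⟨l, -, hl⟩ := (Nat.dvd_prime_pow hp).mp h1
    rcases Nat.eq_zero_or_pos l with h4 | h4
    · rw [hl, h4, pow_zero]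
    · exfalso
      apply P.not_dvd_index
      refine dvd_trans ?_ h2
      rw [hl]; exact dvd_pow_self p h4.ne'
  obtain ⟨x, hxP, hxM⟩ : ∃ x ∈ (P : Subgroup G), x ∉ M := by
    by_contra hcon
    push Not at hcon
    apply hMtop
    rw [eq_top_iff, ← hAP]
    exact sup_le hAM hcon
  have hMx : M ⊔ zpowers x = ⊤ := by
    have h1 : (M ⊔ zpowers x).index ∣ M.index := Subgroup.index_dvd_of_le le_sup_left
    rw [hMi] at h1
    rcases (Nat.dvd_prime hp).mp h1 with h2 | h2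
    · exact Subgroup.index_eq_one.mp h2
    · exfalso
      apply hxM
      have h3 : M = M ⊔ zpowers x := by
        apply Subgroup.eq_of_le_of_card_ge le_sup_left
        have h4 := M.index_mul_card
        have h5 := (M ⊔ zpowers x).index_mul_card
        rw [h2, ← h4, hMi] at h5
        exact (Nat.eq_of_mul_eq_mul_left hp.pos h5).le
      rw [h3]; exact mem_sup_right (mem_zpowers x)
  have hdec : ∀ g : G, ∃ u ∈ M, ∃ i : ℤ, g = u * x ^ i := by
    intro g
    have h1 : g ∈ M ⊔ zpowers x := by rw [hMx]; exact mem_top _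
    obtain ⟨u, hu, _, ⟨i, rfl⟩, h2⟩ := mem_sup_of_normal_left.mp h1
    exact ⟨u, hu, i, h2.symm⟩
  have hcen : ∀ u ∈ M, u * x = x * u → u ∈ center G := by
    intro u hu hux
    rw [mem_center_iff]
    intro g
    obtain ⟨v, hv, i, rfl⟩ := hdec g
    have h1 : Commute u v := hMc u hu v hv
    have h2 : Commute u (x ^ i) := (show Commute u x from hux).zpow_right i
    exact (h1.mul_right h2).eq.symm
  obtain ⟨a₀, ha₀, ha₀x⟩ : ∃ a ∈ A, a * x ≠ x * a := by
    by_contra hcon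
    push Not at hcon
    apply hnn
    haveI := hqp.isNilpotent
    apply Subgroup.isNilpotent_of_ker_le_center (QuotientGroup.mk' A)
    rw [QuotientGroup.ker_mk']
    exact fun a ha => hcen a (hAM ha) (hcon a ha)
  -- `P = ⟨x⟩`
  have hPx : zpowers x = (P : Subgroup G) := by
    have hxle : zpowers x ≤ (P : Subgroup G) := zpowers_le.mpr hxP
    by_contra hne
    have h1 := lt_nrm_inf P.2 (lt_of_le_of_ne hxle hne)
    apply lt_irrefl (zpowers x)
    refine lt_of_lt_of_le h1 ?_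
    rintro t ⟨htP, htN⟩
    have h2 : ¬ IsMulCommutative ↥(A ⊔ zpowers x) := by
      intro h3
      apply ha₀x
      exact congrArg Subtype.val (h3.is_comm.comm (⟨a₀, mem_sup_left ha₀⟩ : ↥(A ⊔ zpowers x))
        ⟨x, mem_sup_right (mem_zpowers x)⟩)
    have h3 := h _ h2
    have h4 : t ∈ A ⊔ zpowers x := by
      rw [← h3, mem_nrm, cj_sup, cj_of_normal, cj_of_mem_nrm htN]
    obtain ⟨a, ha, z, hz, hazt⟩ := mem_sup_of_normal_left.mp h4
    have h5 : a ∈ (P : Subgroup G) := by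
      have h6 : a = t * z⁻¹ := by rw [← hazt]; group
      rw [h6]; exact mul_mem htP (inv_mem (hxle hz))
    rw [hAP1 a ha h5, one_mul] at hazt
    rw [← hazt]; exact hz
  obtain ⟨kx, hkx⟩ : ∃ k : ℕ, orderOf x = p ^ k := by
    have h1 := IsPGroup.iff_card.mp P.2
    rw [← hPx] at h1
    obtain ⟨n, hn⟩ := h1
    exact ⟨n, by rw [← Nat.card_zpowers]; exact hn⟩
  have hxp : x ^ p ∈ center G := by
    apply hcen
    · rw [← hMi]; exact Subgroup.pow_index_mem M x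
    · exact ((Commute.refl x).pow_left p).eq
  -- the commutator subgroup `[A, x]`
  have hAx : ∀ a ∈ A, x * a * x⁻¹ ∈ A := fun a ha => hAn.conj_mem a ha x
  have hcomA : ∀ a ∈ A, a * x * a⁻¹ * x⁻¹ ∈ A := by
    intro a ha
    have h1 : a * x * a⁻¹ * x⁻¹ = a * (x * a⁻¹ * x⁻¹) := by group
    rw [h1]; exact mul_mem ha (hAx _ (inv_mem ha))
  let D : Subgroup G :=
    { carrier := {d | ∃ a ∈ A, d = a * x * a⁻¹ * x⁻¹}
      one_mem' := ⟨1, one_mem _, by group⟩
      mul_mem' := by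
        rintro _ _ ⟨a, ha, rfl⟩ ⟨b, hb, rfl⟩
        refine ⟨a * b, mul_mem ha hb, ?_⟩
        have h1 := hAc b hb (x * a⁻¹ * x⁻¹) (hAx _ (inv_mem ha))
        have h2 := hAc a⁻¹ (inv_mem ha) b⁻¹ (inv_mem hb)
        calc a * x * a⁻¹ * x⁻¹ * (b * x * b⁻¹ * x⁻¹)
            = a * ((x * a⁻¹ * x⁻¹) * b) * (x * b⁻¹ * x⁻¹) := by group
          _ = a * (b * (x * a⁻¹ * x⁻¹)) * (x * b⁻¹ * x⁻¹) := by rw [h1]
          _ = a * b * x * (a⁻¹ * b⁻¹) * x⁻¹ := by group
          _ = a * b * x * (b⁻¹ * a⁻¹) * x⁻¹ := by rw [h2]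
          _ = _ := by group
      inv_mem' := by
        rintro _ ⟨a, ha, rfl⟩
        refine ⟨a⁻¹, inv_mem ha, ?_⟩
        have h1 := hAc a⁻¹ (inv_mem ha) (x * a * x⁻¹) (hAx _ ha)
        calc (a * x * a⁻¹ * x⁻¹)⁻¹ = (x * a * x⁻¹) * a⁻¹ := by group
          _ = a⁻¹ * (x * a * x⁻¹) := h1.symm
          _ = _ := by group }
  have hD : ∀ d, d ∈ D ↔ ∃ a ∈ A, d = a * x * a⁻¹ * x⁻¹ := fun d => Iff.rfl
  have hDA : D ≤ A := by
    rintro _ ⟨a, ha, rfl⟩
    exact hcomA a ha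
  have hCD : ∀ d ∈ D, d * x = x * d → d = 1 := by
    rintro d ⟨a, ha, hd⟩ hdx
    have h1 : x * a⁻¹ * x⁻¹ = a⁻¹ * d := by rw [hd]; group
    have h2 : ∀ n : ℕ, x ^ n * a⁻¹ * (x ^ n)⁻¹ = a⁻¹ * d ^ n := by
      intro n
      induction n with
      | zero => simp
      | succ n ih =>
        have h3 : x * d ^ n * x⁻¹ = d ^ n := by
          rw [← ((show Commute d x from hdx).pow_left n).eq, mul_inv_cancel_right]
        calc x ^ (n + 1) * a⁻¹ * (x ^ (n + 1))⁻¹ = x * (x ^ n * a⁻¹ * (x ^ n)⁻¹) * x⁻¹ := by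
              rw [pow_succ']; group
          _ = x * (a⁻¹ * d ^ n) * x⁻¹ := by rw [ih]
          _ = (x * a⁻¹ * x⁻¹) * (x * d ^ n * x⁻¹) := by group
          _ = (a⁻¹ * d) * d ^ n := by rw [h1, h3]
          _ = _ := by rw [pow_succ', mul_assoc]
    have h3 := h2 (orderOf x)
    rw [pow_orderOf_eq_one, one_mul, inv_one, mul_one] at h3
    have h4 : d ^ orderOf x = 1 := (mul_eq_left.mp h3.symm)
    rw [hkx] at h4
    exact hAp d (hDA ⟨a, ha, hd⟩) kx h4
  have hfpf : ∀ c ∈ A, c * x = x * c → c = 1 := by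
    intro c hc hcx
    have hcc := hcen c (hAM hc) hcx
    have h1 : ¬ IsMulCommutative ↥(zpowers x ⊔ D) := by
      intro h2
      have h3 : a₀ * x * a₀⁻¹ * x⁻¹ ∈ D := ⟨a₀, ha₀, rfl⟩
      have h4 := hCD _ h3 (congrArg Subtype.val (h2.is_comm.comm
        (⟨_, mem_sup_right h3⟩ : ↥(zpowers x ⊔ D)) ⟨x, mem_sup_left (mem_zpowers x)⟩))
      apply ha₀x
      rw [mul_inv_eq_one, mul_inv_eq_iff_eq_mul] at h4
      exact h4
    have h2 := h _ h1
    have h3 : c ∈ zpowers x ⊔ D := by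
      rw [← h2]
      apply Subgroup.centralizer_le_normalizer
      rw [mem_centralizer_iff]
      intro g _
      exact mem_center_iff.mp hcc g
    have h4 : zpowers x ≤ normalizer (D : Set G) := by
      rw [zpowers_le, mem_nrm]
      apply Subgroup.eq_of_le_of_card_ge _ (by rw [card_cj])
      rw [cj_le']
      rintro _ ⟨a, ha, rfl⟩
      exact ⟨x * a * x⁻¹, hAx a ha, by group⟩
    obtain ⟨z, hz, d, hd, hzd⟩ := exists_mul_of_mem_sup h4 h3
    have h5 : z = 1 := by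
      apply hAP1
      · have h6 : z = c * d⁻¹ := by rw [hzd]; group
        rw [h6]; exact mul_mem hc (inv_mem (hDA hd))
      · rw [← hPx]; exact hz
    rw [h5, one_mul] at hzd
    exact hCD c (hzd ▸ hd) hcx
  refine ⟨x, A, p, hp, hAn, ⟨⟨fun a b => Subtype.ext (hAc a a.2 b b.2)⟩⟩, ⟨kx, hkx⟩, hAcard, ?_, hxp, ?_⟩
  · apply Subgroup.isComplement'_of_disjoint_and_mul_eq_univ
    · rw [disjoint_iff, eq_bot_iff]
      rintro g ⟨h1, h2⟩
      rw [mem_bot]
      exact hAP1 g h2 (hPx ▸ h1)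
    · rw [← Subgroup.mul_normal, hPx, sup_comm, hAP]; rfl
  · intro a ha ha1 hax
    apply ha1
    apply hfpf a ha
    rw [mul_inv_eq_iff_eq_mul] at hax
    exact hax.symm

theorem bwd [Finite G] {x : G} {A : Subgroup G} {p : ℕ} (hp : p.Prime) [hAn : A.Normal]
    (hAc : ∀ a ∈ A, ∀ b ∈ A, a * b = b * a) {k : ℕ} (hk : orderOf x = p ^ k)
    (hcompl : (zpowers x).IsComplement' A) (hxp : x ^ p ∈ center G)
    (hfpf : ∀ a : G, a ∈ A → a ≠ 1 → x * a * x⁻¹ ≠ a) (H : Subgroup G)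
    (hH : ¬ ∀ a ∈ H, ∀ b ∈ H, a * b = b * a) : normalizer (H : Set G) = H := by
  have hfpf' : ∀ a ∈ A, a * x = x * a → a = 1 := by
    intro a ha hax
    by_contra h1
    apply hfpf a ha h1
    rw [← hax, mul_inv_cancel_right]
  have hdec : ∀ g : G, ∃ a ∈ A, ∃ i : ℤ, g = a * x ^ i := by
    intro g
    have h1 : g ∈ A ⊔ zpowers x := by
      rw [sup_comm, hcompl.sup_eq_top]; exact mem_top _
    obtain ⟨u, hu, _, ⟨i, rfl⟩, h2⟩ := mem_sup_of_normal_left.mp h1
    exact ⟨u, hu, i, h2.symm⟩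
  obtain ⟨h, hhH, a₀, ha₀, i, hh, hi⟩ : ∃ h ∈ H, ∃ a ∈ A, ∃ i : ℤ, h = a * x ^ i ∧ ¬ (p : ℤ) ∣ i := by
    by_contra hcon
    push Not at hcon
    apply hH
    intro g hg h hh
    obtain ⟨a, ha, i, rfl⟩ := hdec g
    obtain ⟨b, hb, j, rfl⟩ := hdec h
    obtain ⟨i', hi'⟩ := hcon _ hg a ha i rfl
    obtain ⟨j', hj'⟩ := hcon _ hh b hb j rfl
    have h1 : ∀ l : ℤ, ∀ g : G, Commute (x ^ ((p : ℤ) * l)) g := by
      intro l g
      rw [zpow_mul, zpow_natCast]
      exact (show Commute (x ^ p) g from (mem_center_iff.mp hxp g).symm).zpow_left l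
    rw [hi', hj']
    have h2 : Commute a b := hAc a ha b hb
    have h3 : Commute (a * x ^ ((p : ℤ) * i')) (b * x ^ ((p : ℤ) * j')) :=
      (h2.mul_right (h1 j' a).symm).mul_left (h1 i' _)
    exact h3.eq
  obtain ⟨u, hu⟩ : ∃ u : ℤ, (x ^ i) ^ u = x := by
    have h1 : IsCoprime i ((p : ℤ) ^ k) := by
      apply IsCoprime.pow_right
      rw [isCoprime_comm]
      exact (Nat.prime_iff_prime_int.mp hp).coprime_iff_not_dvd.mpr hi
    obtain ⟨a, b, hab⟩ := h1
    refine ⟨a, ?_⟩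
    have h2 : x ^ ((p : ℤ) ^ k) = 1 := by
      have h3 := pow_orderOf_eq_one x
      rw [hk] at h3
      exact_mod_cast h3
    calc (x ^ i) ^ a = x ^ (a * i) * (x ^ ((p : ℤ) ^ k)) ^ b := by
          rw [h2, one_zpow, mul_one, ← zpow_mul, mul_comm]
      _ = x ^ (a * i + b * (p : ℤ) ^ k) := by rw [← zpow_mul, ← zpow_add, mul_comm b]
      _ = x := by rw [hab, zpow_one]
  have hfix : ∀ a ∈ A, a * h = h * a → a = 1 := by
    intro a ha hah
    apply hfpf' a ha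
    have h1 : Commute a a₀ := hAc a ha a₀ ha₀
    have h2 : Commute a (x ^ i) := by
      have h3 : Commute a (a₀⁻¹ * h) := h1.inv_right.mul_right hah
      rw [hh, inv_mul_cancel_left] at h3
      exact h3
    have h3 := h2.zpow_right u
    rw [hu] at h3
    exact h3.eq
  apply le_antisymm _ le_normalizer
  intro n hn
  obtain ⟨b, hb, j, hnj⟩ := hdec n
  obtain ⟨c, hc⟩ : ∃ c, c = n * (h ^ (u * j))⁻¹ := ⟨_, rfl⟩
  have hcA : c ∈ A := by
    rw [← QuotientGroup.eq_one_iff, hc, QuotientGroup.mk_mul, QuotientGroup.mk_inv, QuotientGroup.mk_zpow,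
      hnj, hh, QuotientGroup.mk_mul, QuotientGroup.mk_mul, (QuotientGroup.eq_one_iff b).mpr hb,
      (QuotientGroup.eq_one_iff a₀).mpr ha₀, one_mul, one_mul, ← QuotientGroup.mk_zpow, zpow_mul, hu,
      mul_inv_cancel]
  have hcN : c ∈ normalizer (H : Set G) := by
    rw [hc]; exact mul_mem hn (inv_mem (zpow_mem (le_normalizer hhH) _))
  have hcH : c ∈ H := by
    -- the commutator map on `A ⊓ H`
    have hmem : ∀ b ∈ A ⊓ H, b * h * b⁻¹ * h⁻¹ ∈ A ⊓ H := by
      rintro b ⟨hb1, hb2⟩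
      refine ⟨?_, ?_⟩
      · have h1 : b * h * b⁻¹ * h⁻¹ = b * (h * b⁻¹ * h⁻¹) := by group
        rw [h1]; exact mul_mem hb1 (hAn.conj_mem _ (inv_mem hb1) h)
      · exact H.mul_mem (H.mul_mem (H.mul_mem hb2 hhH) (H.inv_mem hb2)) (H.inv_mem hhH)
    have hinj : ∀ b ∈ A, ∀ b' ∈ A, b * h * b⁻¹ * h⁻¹ = b' * h * b'⁻¹ * h⁻¹ → b = b' := by
      intro b hb b' hb' h1
      have h2 : b * h * b⁻¹ = b' * h * b'⁻¹ := mul_right_cancel h1
      have h3 : b'⁻¹ * b = 1 := by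
        apply hfix _ (mul_mem (inv_mem hb') hb)
        calc b'⁻¹ * b * h = b'⁻¹ * (b * h * b⁻¹) * b := by group
          _ = b'⁻¹ * (b' * h * b'⁻¹) * b := by rw [h2]
          _ = _ := by group
      exact (inv_mul_eq_one.mp h3).symm
    let f : ↥(A ⊓ H) → ↥(A ⊓ H) := fun b => ⟨_, hmem b b.2⟩
    have hf : Function.Injective f := by
      intro b b' hbb
      exact Subtype.ext (hinj b b.2.1 b' b'.2.1 (congrArg Subtype.val hbb))
    have hcc : c * h * c⁻¹ * h⁻¹ ∈ A ⊓ H := by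
      refine ⟨?_, H.mul_mem ((mem_normalizer_iff.mp hcN h).mp hhH) (H.inv_mem hhH)⟩
      have h1 : c * h * c⁻¹ * h⁻¹ = c * (h * c⁻¹ * h⁻¹) := by group
      rw [h1]; exact mul_mem hcA (hAn.conj_mem _ (inv_mem hcA) h)
    obtain ⟨b, hb⟩ := Finite.surjective_of_injective hf ⟨_, hcc⟩
    rw [hinj c hcA b b.2.1 (congrArg Subtype.val hb).symm]
    exact b.2.2
  have h1 : n = c * h ^ (u * j) := by rw [hc]; group
  rw [h1]
  exact mul_mem hcH (zpow_mem hhH _)

end CfsgLib.H7SelfN
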