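import Mathlib
import Cfsg.Agent.LibH7TwA
import Cfsg.Agent.LibFgSub

/-! `n_3 ≠ 22`: the geometry of Sylow intersections. -/

set_option autoImplicit false

namespace CfsgLib.H7Tw

open Subgroup MulAction CfsgLib.H7 CfsgLib.H7Hall CfsgLib.H7Act
open scoped Pointwise

variable {G : Type*} [Group G] [Finite G]

omit [Finite G] in
theorem smul_self_of_mem {P : Sylow 3 G} {g : G} (hg : g ∈ (P : Subgroup G)) : g • P = P := by
  rw [Sylow.smul_eq_iff_mem_normalizer]; exact le_normalizer hg

theorem fixed_iff (P Q : Sylow 3 G) (h : ∀ g ∈ (P : Subgroup G), g • Q = Q) : Q = P := by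
  have := le_of_le_normalizer_sylow P.isPGroup' Q h
  exact Sylow.ext (P.is_maximal' Q.isPGroup' this)

theorem eq_of_le {P Q : Sylow 3 G} (h : (P : Subgroup G) ≤ Q) : Q = P :=
  Sylow.ext (P.is_maximal' Q.isPGroup' h)

theorem not_comm (h22 : Nat.card (Sylow 3 G) = 22) : ¬ ∀ a b : G, a * b = b * a := by
  intro h
  have : Subsingleton (Sylow 3 G) := by
    refine ⟨fun P Q => ?_⟩
    symm
    apply fixed_iff P Q
    intro g _
    rw [Sylow.smul_eq_iff_mem_normalizer]
    apply (mem_normalizer_iff (H := (Q : Subgroup G))).2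
    intro x
    rw [h g x, mul_inv_cancel_right]
  have := Finite.card_le_one_iff_subsingleton.mpr this
  omega

theorem faithful [IsSimpleGroup G] (h22 : Nat.card (Sylow 3 G) = 22) {g : G}
    (hg : ∀ Q : Sylow 3 G, g • Q = Q) : g = 1 := by
  have hn : (MulAction.toPermHom G (Sylow 3 G)).ker.Normal := inferInstance
  have hmem : g ∈ (MulAction.toPermHom G (Sylow 3 G)).ker := by
    rw [MonoidHom.mem_ker]
    ext1 Q
    exact hg Q
  rcases hn.eq_bot_or_eq_top with h | h
  · rw [h, mem_bot] at hmem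
    exact hmem
  · exfalso
    have : Subsingleton (Sylow 3 G) := by
      refine ⟨fun P Q => ?_⟩
      obtain ⟨x, hx⟩ := MulAction.exists_smul_eq G P Q
      have h1 : x ∈ (MulAction.toPermHom G (Sylow 3 G)).ker := by rw [h]; trivial
      rw [MonoidHom.mem_ker] at h1
      have h2 : x • P = P := by
        have := congrArg (fun f => f P) h1
        exact this
      rw [← hx, h2]
    have := Finite.card_le_one_iff_subsingleton.mpr this
    omega

theorem sign_trivial [IsSimpleGroup G] (h22 : Nat.card (Sylow 3 G) = 22) {Ω : Type*} [Fintype Ω]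
    [DecidableEq Ω] [MulAction G Ω] (g : G) : Equiv.Perm.sign (MulAction.toPermHom G Ω g) = 1 := by
  let f : G →* ℤˣ := (Equiv.Perm.sign : Equiv.Perm Ω →* ℤˣ).comp (MulAction.toPermHom G Ω)
  have hn : f.ker.Normal := inferInstance
  rcases hn.eq_bot_or_eq_top with h | h
  · exfalso
    apply not_comm h22
    intro a b
    have hinj : Function.Injective f := (MonoidHom.ker_eq_bot_iff f).mp h
    apply hinj
    rw [map_mul, map_mul, mul_comm]
  · have : g ∈ f.ker := by rw [h]; trivial
    exact this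

theorem bot_of_le_all [IsSimpleGroup G] (h22 : Nat.card (Sylow 3 G) = 22) {D : Subgroup G}
    (hD : ∀ Q : Sylow 3 G, D ≤ Q) : D = ⊥ := by
  rw [eq_bot_iff]
  intro d hd
  rw [mem_bot]
  apply faithful h22
  intro Q
  exact smul_self_of_mem (hD Q hd)

theorem card_sylow_eq (P Q : Sylow 3 G) : Nat.card (P : Subgroup G) = Nat.card (Q : Subgroup G) := by
  rw [P.card_eq_multiplicity, Q.card_eq_multiplicity]

theorem coe_smul' (g : G) (P : Sylow 3 G) : ((g • P : Sylow 3 G) : Subgroup G) = MulAut.conj g • (P : Subgroup G) :=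
  rfl

theorem dist_smul (g : G) (R P : Sylow 3 G) :
    ((g • R : Sylow 3 G) : Subgroup G).relIndex ((g • P : Sylow 3 G) : Subgroup G) = (R : Subgroup G).relIndex P := by
  rw [coe_smul', coe_smul', relIndex_pointwise_smul]

theorem dist_pow (P R : Sylow 3 G) : ∃ k, (R : Subgroup G).relIndex P = 3 ^ k ∧ (k = 0 → R = P) := by
  obtain ⟨k, hk⟩ := P.isPGroup'.index ((R : Subgroup G).subgroupOf P)
  refine ⟨k, hk, ?_⟩
  rintro rfl
  change (R : Subgroup G).relIndex P = 3 ^ 0 at hk
  rw [pow_zero, Subgroup.relIndex_eq_one] at hk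
  exact eq_of_le hk

theorem dist_le (h22 : Nat.card (Sylow 3 G) = 22) {P R : Sylow 3 G} (h : R ≠ P) :
    (R : Subgroup G).relIndex P ≤ 21 := by
  rw [← card_orbit_sylow]
  have hsub : orbit (P : Subgroup G) R ⊆ {P}ᶜ := by
    rintro _ ⟨g, rfl⟩ hQ
    rw [Set.mem_singleton_iff] at hQ
    apply h
    have h1 : (g : G) • R = P := hQ
    have h2 : (g : G)⁻¹ • P = P := smul_self_of_mem (inv_mem g.2)
    have h3 : R = (g : G)⁻¹ • P := by rw [eq_inv_smul_iff]; exact h1
    rw [h3, h2]
  have h1 : Nat.card (orbit (P : Subgroup G) R) ≤ Nat.card ({P}ᶜ : Set (Sylow 3 G)) :=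
    Nat.card_mono (Set.toFinite _) hsub
  have h2 : Nat.card ({P}ᶜ : Set (Sylow 3 G)) = 21 := by
    rw [Nat.card_coe_set_eq, Set.ncard_compl, h22, Set.ncard_singleton]
  omega

theorem dist_cases (h22 : Nat.card (Sylow 3 G) = 22) {P R : Sylow 3 G} (h : R ≠ P) :
    (R : Subgroup G).relIndex P = 3 ∨ (R : Subgroup G).relIndex P = 9 := by
  obtain ⟨k, hk, hk0⟩ := dist_pow P R
  have h1 := dist_le h22 h
  rw [hk] at h1 ⊢
  have hk3 : k < 3 := by
    by_contra hcon
    have : 3 ^ 3 ≤ 3 ^ k := Nat.pow_le_pow_right (by norm_num) (by omega)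
    omega
  interval_cases k
  · exact absurd (hk0 rfl) h
  · left; norm_num
  · right; norm_num

theorem dist_ne {P R : Sylow 3 G} (h : (R : Subgroup G).relIndex P ≠ 1) : R ≠ P := by
  rintro rfl
  exact h (relIndex_self _)

/-- set of Sylow subgroups at distance `n` -/
def Sph (P : Sylow 3 G) (n : ℕ) : Set (Sylow 3 G) := {R | (R : Subgroup G).relIndex P = n}

theorem sph_inv (P : Sylow 3 G) (n : ℕ) : ∀ g ∈ (P : Subgroup G), ∀ R ∈ Sph P n, g • R ∈ Sph P n := by
  intro g hg R hR
  have := dist_smul g R P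
  rw [smul_self_of_mem hg] at this
  change _ = n
  rw [this]; exact hR

theorem sph_smul (g : G) (P : Sylow 3 G) (n : ℕ) (R : Sylow 3 G) : g • R ∈ Sph (g • P) n ↔ R ∈ Sph P n := by
  change _ = n ↔ _ = n
  rw [dist_smul]

theorem nine_dvd (P : Sylow 3 G) : 9 ∣ Nat.card (Sph P 9) := by
  apply dvd_card_of_orbits (P : Subgroup G) _ (sph_inv P 9)
  intro R hR
  rw [card_orbit_sylow]
  have : (R : Subgroup G).relIndex P = 9 := hR
  rw [this]

theorem card_sph_add (h22 : Nat.card (Sylow 3 G) = 22) (P : Sylow 3 G) :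
    Nat.card (Sph P 3) + Nat.card (Sph P 9) = 21 := by
  have hdisj : Disjoint (Sph P 3) (Sph P 9) := by
    rw [Set.disjoint_left]
    intro R h1 h2
    have h1' : (R : Subgroup G).relIndex P = 3 := h1
    have h2' : (R : Subgroup G).relIndex P = 9 := h2
    omega
  have hun : Sph P 3 ∪ Sph P 9 = {P}ᶜ := by
    ext R
    rw [Set.mem_union, Set.mem_compl_iff, Set.mem_singleton_iff]
    constructor
    · rintro (h | h)
      · have h' : (R : Subgroup G).relIndex P = 3 := h
        exact dist_ne (by omega)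
      · have h' : (R : Subgroup G).relIndex P = 9 := h
        exact dist_ne (by omega)
    · intro h
      exact dist_cases h22 h
  have h1 : (Sph P 3 ∪ Sph P 9).ncard = 21 := by
    rw [hun, Set.ncard_compl, h22, Set.ncard_singleton]
  rw [Set.ncard_union_eq hdisj (Set.toFinite _) (Set.toFinite _)] at h1
  rw [Nat.card_coe_set_eq, Nat.card_coe_set_eq]
  exact h1

section finsets

open scoped Classical

noncomputable local instance : Fintype (Sylow 3 G) := Fintype.ofFinite _
noncomputable local instance : Fintype (Subgroup G) := Fintype.ofFinite _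

/-- the Sylow subgroups containing `E` -/
noncomputable def LF (E : Subgroup G) : Finset (Sylow 3 G) := Finset.univ.filter (fun Q => E ≤ (Q : Subgroup G))

theorem mem_LF {E : Subgroup G} {Q : Sylow 3 G} : Q ∈ LF E ↔ E ≤ (Q : Subgroup G) := by
  simp [LF]

/-- intersections of index 3 -/
noncomputable def EE (G : Type*) [Group G] [Finite G] : Finset (Subgroup G) :=
  Finset.univ.filter (fun E => (∀ P : Sylow 3 G, 3 * Nat.card E = Nat.card (P : Subgroup G)) ∧ 2 ≤ (LF E).card)

theorem mem_EE {E : Subgroup G} : E ∈ EE G ↔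
    (∀ P : Sylow 3 G, 3 * Nat.card E = Nat.card (P : Subgroup G)) ∧ 2 ≤ (LF E).card := by
  simp [EE]

theorem inter_eq {E : Subgroup G} (hE : E ∈ EE G) {Q R : Sylow 3 G} (hQ : E ≤ (Q : Subgroup G))
    (hR : E ≤ (R : Subgroup G)) (hne : Q ≠ R) : (Q : Subgroup G) ⊓ R = E := by
  symm
  have hle : E ≤ (Q : Subgroup G) ⊓ R := le_inf hQ hR
  obtain ⟨m, hm⟩ := card_dvd_of_le hle
  have h2 : Nat.card ((Q : Subgroup G) ⊓ R : Subgroup G) ∣ Nat.card (Q : Subgroup G) := card_dvd_of_le inf_le_left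
  rw [← (mem_EE.1 hE).1 Q, hm, mul_comm 3] at h2
  have h3 : m ∣ 3 := (Nat.mul_dvd_mul_iff_left (Nat.card_pos (α := E))).1 h2
  rcases (Nat.dvd_prime Nat.prime_three).1 h3 with rfl | rfl
  · rw [mul_one] at hm
    exact eq_of_le_of_card_ge hle (by rw [hm])
  · exfalso
    have h4 : Nat.card ((Q : Subgroup G) ⊓ R : Subgroup G) = Nat.card (Q : Subgroup G) := by
      rw [hm, ← (mem_EE.1 hE).1 Q, mul_comm]
    have h5 : (Q : Subgroup G) ⊓ R = Q := eq_of_le_of_card_ge inf_le_left (by rw [h4])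
    exact hne (eq_of_le (inf_eq_left.mp h5)).symm

theorem E_normal {E : Subgroup G} (hE : E ∈ EE G) {P : Sylow 3 G} (hP : E ≤ (P : Subgroup G)) :
    ∀ g ∈ (P : Subgroup G), CfsgLib.FgSub.cj g E = E := by
  have hc := (mem_EE.1 hE).1 P
  have hidx : (E.subgroupOf (P : Subgroup G)).index = 3 := by
    have h1 := card_mul_relIndex hP
    rw [← hc, mul_comm] at h1
    exact Nat.eq_of_mul_eq_mul_right Nat.card_pos h1
  have hn : (E.subgroupOf (P : Subgroup G)).Normal := by
    apply normal_of_index_eq_minFac_card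
    rw [hidx]
    obtain ⟨k, hk⟩ := IsPGroup.iff_card.mp P.isPGroup'
    rw [hk]
    have hk0 : k ≠ 0 := by
      rintro rfl
      rw [hk, pow_zero] at hc
      have := Nat.card_pos (α := E)
      omega
    rw [Nat.prime_three.pow_minFac hk0]
  intro g hg
  have := (normal_subgroupOf_iff_le_normalizer hP).mp hn
  exact CfsgLib.FgSub.mem_normalizer_iff_cj.1 (this hg)

theorem LF_mod {E : Subgroup G} (hE : E ∈ EE G) : (LF E).card % 3 = 1 := by
  have h2 : 0 < (LF E).card := by have := (mem_EE.1 hE).2; omega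
  obtain ⟨P, hP⟩ := Finset.card_pos.mp h2
  rw [mem_LF] at hP
  have hinv : ∀ g ∈ (P : Subgroup G), ∀ Q ∈ (LF E : Set (Sylow 3 G)), g • Q ∈ (LF E : Set (Sylow 3 G)) := by
    intro g hg Q hQ
    rw [Finset.mem_coe, mem_LF] at hQ ⊢
    rw [← E_normal hE hP g hg]
    exact Subgroup.map_mono hQ
  have h := card_modEq_fixed (p := 3) (P : Subgroup G) P.isPGroup' (LF E : Set (Sylow 3 G)) hinv
  have hfix : {Q : Sylow 3 G | Q ∈ (LF E : Set (Sylow 3 G)) ∧ ∀ g ∈ (P : Subgroup G), g • Q = Q} = {P} := by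
    ext Q
    rw [Set.mem_singleton_iff]
    constructor
    · rintro ⟨-, hQ⟩
      exact fixed_iff P Q hQ
    · rintro rfl
      exact ⟨by rw [Finset.mem_coe, mem_LF]; exact hP, fun g hg => smul_self_of_mem hg⟩
  rw [hfix] at h
  have h3 : Nat.card ((LF E : Set (Sylow 3 G))) = (LF E).card := by
    rw [Nat.card_eq_fintype_card]; exact Fintype.card_coe _
  have h4 : Nat.card ({P} : Set (Sylow 3 G)) = 1 := Nat.card_unique
  rw [h3, h4] at h
  exact h

theorem LF_le (h22 : Nat.card (Sylow 3 G) = 22) (E : Subgroup G) : (LF E).card ≤ 22 := by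
  rw [← h22, Nat.card_eq_fintype_card]
  exact Finset.card_le_univ _

theorem conj_card (g : G) (E : Subgroup G) : (LF (CfsgLib.FgSub.cj g E)).card = (LF E).card := by
  symm
  apply Finset.card_bij (fun Q _ => g • Q)
  · intro Q hQ
    rw [mem_LF] at hQ ⊢
    exact Subgroup.map_mono hQ
  · intro Q _ R _ h
    exact smul_left_cancel g h
  · intro R hR
    refine ⟨g⁻¹ • R, ?_, smul_inv_smul g R⟩
    rw [mem_LF] at hR ⊢
    have : CfsgLib.FgSub.cj g⁻¹ (CfsgLib.FgSub.cj g E) ≤ CfsgLib.FgSub.cj g⁻¹ (R : Subgroup G) :=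
      CfsgLib.FgSub.cj_mono hR
    rw [CfsgLib.FgSub.cj_inv_cj] at this
    exact this

theorem conj_mem_EE (g : G) {E : Subgroup G} (h : E ∈ EE G) : CfsgLib.FgSub.cj g E ∈ EE G := by
  rw [mem_EE] at h ⊢
  rw [conj_card, CfsgLib.FgSub.card_cj]
  exact h

/-- number of `n`-lines through `P` -/
noncomputable def rr (P : Sylow 3 G) (n : ℕ) : ℕ :=
  ((EE G).filter (fun E => E ≤ (P : Subgroup G) ∧ (LF E).card = n)).card

theorem rr_smul (g : G) (P : Sylow 3 G) (n : ℕ) : rr (g • P) n = rr P n := by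
  symm
  apply Finset.card_bij (fun E _ => CfsgLib.FgSub.cj g E)
  · intro E hE
    rw [Finset.mem_filter] at hE ⊢
    refine ⟨conj_mem_EE g hE.1, Subgroup.map_mono hE.2.1, ?_⟩
    rw [conj_card]; exact hE.2.2
  · intro E _ F _ h
    exact CfsgLib.FgSub.cj_inj.1 h
  · intro F hF
    rw [Finset.mem_filter] at hF
    refine ⟨CfsgLib.FgSub.cj g⁻¹ F, ?_, by simp⟩
    rw [Finset.mem_filter]
    refine ⟨conj_mem_EE _ hF.1, ?_, ?_⟩
    · have : CfsgLib.FgSub.cj g⁻¹ F ≤ CfsgLib.FgSub.cj g⁻¹ (CfsgLib.FgSub.cj g (P : Subgroup G)) :=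
        CfsgLib.FgSub.cj_mono hF.2.1
      rwa [CfsgLib.FgSub.cj_inv_cj] at this
    · rw [conj_card]; exact hF.2.2

theorem rr_eq (P Q : Sylow 3 G) (n : ℕ) : rr P n = rr Q n := by
  obtain ⟨g, rfl⟩ := MulAction.exists_smul_eq G Q P
  exact rr_smul g Q n

/-- double counting -/
theorem double_count (h22 : Nat.card (Sylow 3 G) = 22) (P : Sylow 3 G) (n : ℕ) :
    n ∣ 22 * rr P n := by
  have h := Finset.sum_card_bipartiteAbove_eq_sum_card_bipartiteBelow
    (s := (Finset.univ : Finset (Sylow 3 G))) (t := (EE G).filter (fun E => (LF E).card = n))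
    (fun (Q : Sylow 3 G) (E : Subgroup G) => E ≤ (Q : Subgroup G))
  have h1 : ∀ Q ∈ (Finset.univ : Finset (Sylow 3 G)), (Finset.bipartiteAbove
      (fun (Q : Sylow 3 G) (E : Subgroup G) => E ≤ (Q : Subgroup G))
      ((EE G).filter (fun E => (LF E).card = n)) Q).card = rr P n := by
    intro Q _
    rw [rr_eq P Q n]
    unfold rr Finset.bipartiteAbove
    rw [Finset.filter_filter]
    congr 1
    ext E
    simp only [Finset.mem_filter]
    tauto
  rw [Finset.sum_congr rfl h1, Finset.sum_const, Finset.card_univ, ← Nat.card_eq_fintype_card, h22,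
    smul_eq_mul] at h
  rw [h]
  apply Finset.dvd_sum
  intro E hE
  rw [Finset.mem_filter] at hE
  have : (Finset.bipartiteBelow (fun (Q : Sylow 3 G) (E : Subgroup G) => E ≤ (Q : Subgroup G))
      (Finset.univ : Finset (Sylow 3 G)) E) = LF E := rfl
  rw [this, hE.2]

/-- partition of the neighbours -/
theorem card_sph_three (P : Sylow 3 G) :
    Nat.card (Sph P 3) = ∑ E ∈ (EE G).filter (fun E => E ≤ (P : Subgroup G)), ((LF E).card - 1) := by
  have e1 : Nat.card (Sph P 3) = ((Finset.univ : Finset (Sylow 3 G)).filter (fun R => R ∈ Sph P 3)).card := by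
    rw [Nat.card_eq_fintype_card, Fintype.card_subtype]
  rw [e1]
  have hmaps : ∀ R ∈ (Finset.univ : Finset (Sylow 3 G)).filter (fun R => R ∈ Sph P 3),
      (P : Subgroup G) ⊓ R ∈ (EE G).filter (fun E => E ≤ (P : Subgroup G)) := by
    intro R hR
    rw [Finset.mem_filter] at hR
    have hR' : (R : Subgroup G).relIndex P = 3 := hR.2
    rw [Finset.mem_filter, mem_EE]
    refine ⟨⟨?_, ?_⟩, inf_le_left⟩
    · intro Q
      rw [card_sylow_eq Q P]
      have := card_mul_relIndex (inf_le_left : (P : Subgroup G) ⊓ R ≤ P)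
      rw [inf_relIndex_left, hR', mul_comm] at this
      exact this
    · have : ({P, R} : Finset (Sylow 3 G)) ⊆ LF ((P : Subgroup G) ⊓ R) := by
        intro Q hQ
        rw [mem_LF]
        rcases Finset.mem_insert.1 hQ with rfl | hQ
        · exact inf_le_left
        · rw [Finset.mem_singleton] at hQ
          subst hQ
          exact inf_le_right
      have h2 := Finset.card_le_card this
      rwa [Finset.card_pair (dist_ne (by omega)).symm] at h2
  rw [Finset.card_eq_sum_card_fiberwise hmaps]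
  apply Finset.sum_congr rfl
  intro E hE
  rw [Finset.mem_filter] at hE
  have : ((Finset.univ : Finset (Sylow 3 G)).filter (fun R => R ∈ Sph P 3)).filter
      (fun R : Sylow 3 G => (P : Subgroup G) ⊓ (R : Subgroup G) = E) = (LF E).erase P := by
    ext R
    rw [Finset.mem_filter, Finset.mem_filter, Finset.mem_erase, mem_LF]
    constructor
    · rintro ⟨⟨-, h1⟩, h2⟩
      have h1' : (R : Subgroup G).relIndex P = 3 := h1
      refine ⟨dist_ne (by omega), ?_⟩
      rw [← h2]; exact inf_le_right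
    · rintro ⟨h1, h2⟩
      have h3 := inter_eq hE.1 hE.2 h2 h1.symm
      refine ⟨⟨Finset.mem_univ _, ?_⟩, h3⟩
      change (R : Subgroup G).relIndex P = 3
      have := card_mul_relIndex (inf_le_left : (P : Subgroup G) ⊓ R ≤ P)
      rw [inf_relIndex_left, h3, ← (mem_EE.1 hE.1).1 P, mul_comm] at this
      exact Nat.eq_of_mul_eq_mul_right Nat.card_pos this
  rw [this, Finset.card_erase_of_mem]
  rw [mem_LF]; exact hE.2

theorem rr_mul_le (h22 : Nat.card (Sylow 3 G) = 22) (P : Sylow 3 G) (n : ℕ) : rr P n * (n - 1) ≤ 21 := by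
  have h1 := card_sph_three P
  have h2 := card_sph_add h22 P
  have h3 : rr P n * (n - 1) ≤ ∑ E ∈ (EE G).filter (fun E => E ≤ (P : Subgroup G)), ((LF E).card - 1) := by
    have h4 : ∑ E ∈ (EE G).filter (fun E => E ≤ (P : Subgroup G) ∧ (LF E).card = n), ((LF E).card - 1) =
        rr P n * (n - 1) := by
      rw [Finset.sum_congr rfl (fun E hE => by rw [(Finset.mem_filter.1 hE).2.2]), Finset.sum_const,
        smul_eq_mul]
      rfl
    rw [← h4]
    apply Finset.sum_le_sum_of_subset
    intro E hE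
    rw [Finset.mem_filter] at hE ⊢
    exact ⟨hE.1, hE.2.1⟩
  omega

theorem line_cases (h22 : Nat.card (Sylow 3 G) = 22) {E : Subgroup G} (hE : E ∈ EE G) :
    (LF E).card = 4 ∨ (LF E).card = 22 := by
  have h2 := (mem_EE.1 hE).2
  have hpos : 0 < (LF E).card := by omega
  obtain ⟨P, hP⟩ := Finset.card_pos.mp hpos
  rw [mem_LF] at hP
  have h3 := LF_mod hE
  have h4 := LF_le h22 E
  have h5 := rr_mul_le h22 P (LF E).card
  have h6 := double_count h22 P (LF E).card
  have h7 : 1 ≤ rr P (LF E).card := by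
    apply Finset.card_pos.mpr
    exact ⟨E, by rw [Finset.mem_filter]; exact ⟨hE, hP, rfl⟩⟩
  generalize (LF E).card = n at *
  generalize rr P n = r at *
  have hr : r ≤ 21 := by
    have : r * 1 ≤ r * (n - 1) := Nat.mul_le_mul_left r (by omega)
    omega
  interval_cases n <;> first | omega | (interval_cases r <;> omega)

theorem line_structure [IsSimpleGroup G] (h22 : Nat.card (Sylow 3 G) = 22) :
    (∀ P : Sylow 3 G, Nat.card (P : Subgroup G) = 3) ∨
    (∀ P : Sylow 3 G, Nat.card (Sph P 3) = 12 ∧ Nat.card (Sph P 9) = 9 ∧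
      ((EE G).filter (fun E => E ≤ (P : Subgroup G))).card = 4 ∧
      ∀ E ∈ EE G, (LF E).card = 4) := by
  by_cases h : ∃ E ∈ EE G, (LF E).card = 22
  · left
    obtain ⟨E, hE, hE22⟩ := h
    have hall : ∀ Q : Sylow 3 G, E ≤ Q := by
      intro Q
      rw [← mem_LF]
      have : LF E = Finset.univ := by
        apply Finset.eq_univ_of_card
        rw [hE22, ← Nat.card_eq_fintype_card, h22]
      rw [this]; exact Finset.mem_univ _
    have := bot_of_le_all h22 hall
    intro P
    rw [← (mem_EE.1 hE).1 P, this]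
    simp
  · right
    push Not at h
    have hfour : ∀ E ∈ EE G, (LF E).card = 4 := fun E hE => (line_cases h22 hE).resolve_right (h E hE)
    intro P
    have h1 := card_sph_three P
    rw [Finset.sum_congr rfl (fun E hE => by rw [hfour E (Finset.mem_filter.1 hE).1]), Finset.sum_const,
      smul_eq_mul] at h1
    have h2 := card_sph_add h22 P
    have h3 := nine_dvd P
    have h4 := double_count h22 P 4
    have h5 : rr P 4 = ((EE G).filter (fun E => E ≤ (P : Subgroup G))).card := by
      unfold rr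
      congr 1
      ext E
      rw [Finset.mem_filter, Finset.mem_filter]
      constructor
      · rintro ⟨a, b, c⟩
        exact ⟨a, b⟩
      · rintro ⟨a, b⟩
        exact ⟨a, b, hfour E a⟩
    rw [h5] at h4
    refine ⟨?_, ?_, ?_, hfour⟩ <;> omega

end finsets

end CfsgLib.H7Tw
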