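import Mathlib
import Cfsg.Agent.LibH7TwB

/-! `n_3 ≠ 22`: Sylow 11-subgroups. -/

set_option autoImplicit false

namespace CfsgLib.H7Tw

open Subgroup MulAction CfsgLib.H7 CfsgLib.H7Hall CfsgLib.H7Act
open scoped Pointwise

instance fact11 : Fact (Nat.Prime 11) := ⟨by norm_num⟩
instance fact2 : Fact (Nat.Prime 2) := ⟨by norm_num⟩

variable {G : Type*} [Group G] [Finite G]

theorem card_stab (h22 : Nat.card (Sylow 3 G) = 22) (Q : Sylow 3 G) :
    Nat.card (stabilizer G Q) * 22 = Nat.card G := by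
  rw [← h22, Q.card_eq_index_normalizer, ← Subgroup.card_mul_index (stabilizer G Q)]
  congr 1
  rw [Sylow.stabilizer_eq_normalizer]

/-- the point stabilizer is maximal -/
theorem stab_maximal (h22 : Nat.card (Sylow 3 G) = 22) (P : Sylow 3 G) {M : Subgroup G}
    (hM : stabilizer G P ≤ M) : M = stabilizer G P ∨ M = ⊤ := by
  have hN : stabilizer G P = normalizer ((P : Subgroup G) : Set G) := Sylow.stabilizer_eq_normalizer P
  have hPM : (P : Subgroup G) ≤ M := by
    refine le_trans ?_ hM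
    rw [hN]; exact le_normalizer
  have h1 := (isSyl_of_sylow P hPM).card
  rw [← hN] at h1
  have h2 : Nat.card (Sylow 3 M) % 3 = 1 := card_sylow_modEq_one 3 M
  have h3 := relIndex_mul_index hM
  have h4 : (stabilizer G P).index = 22 := by
    rw [hN, ← h22, P.card_eq_index_normalizer]; rfl
  rw [h4] at h3
  rw [h1] at h2
  have h5 : (stabilizer G P).relIndex M ∣ 22 := ⟨_, h3.symm⟩
  have h6 := Nat.le_of_dvd (by norm_num) h5
  have h7 : (stabilizer G P).relIndex M = 1 ∨ (stabilizer G P).relIndex M = 22 := by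
    generalize (stabilizer G P).relIndex M = r at *
    interval_cases r <;> simp_all (config := {decide := true})
  rcases h7 with h7 | h7
  · left
    exact le_antisymm (relIndex_eq_one.mp h7) hM
  · right
    rw [h7] at h3
    exact index_eq_one.mp (by omega)

section X

variable (X : Subgroup G)

/-- context for the Sylow 11-subgroup -/
structure XCtx (X : Subgroup G) : Prop where
  card : Nat.card X = 11
  free : ∀ x ∈ X, ∀ Q : Sylow 3 G, x • Q = Q → x = 1

variable {X}

theorem XCtx.orbit_card (h : XCtx X) (Q : Sylow 3 G) : (orbit X Q).ncard = 11 := by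
  rw [← MulAction.index_stabilizer]
  have : stabilizer X Q = ⊥ := by
    rw [eq_bot_iff]
    intro x hx
    rw [mem_stabilizer_iff] at hx
    rw [mem_bot]
    exact Subtype.ext (h.free x x.2 Q hx)
  rw [this, index_bot, h.card]

theorem XCtx.three (h : XCtx X) (h22 : Nat.card (Sylow 3 G) = 22) (Q1 Q2 Q3 : Sylow 3 G) :
    ∃ x ∈ X, x • Q1 = Q2 ∨ x • Q1 = Q3 ∨ x • Q2 = Q3 := by
  by_contra hcon
  push Not at hcon
  have hd : ∀ Q R : Sylow 3 G, (∀ x ∈ X, x • Q ≠ R) → Disjoint (orbit X Q) (orbit X R) := by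
    intro Q R hQR
    rw [Set.disjoint_left]
    rintro _ ⟨x, rfl⟩ ⟨y, hy⟩
    apply hQR ((y : G)⁻¹ * x) (mul_mem (inv_mem y.2) x.2)
    have hy' : (y : G) • R = (x : G) • Q := hy
    rw [mul_smul, ← hy', inv_smul_smul]
  have d12 := hd Q1 Q2 (fun x hx => (hcon x hx).1)
  have d13 := hd Q1 Q3 (fun x hx => (hcon x hx).2.1)
  have d23 := hd Q2 Q3 (fun x hx => (hcon x hx).2.2)
  have e1 := Set.ncard_union_eq d12 (Set.toFinite _) (Set.toFinite _)
  have e2 := Set.ncard_union_eq (Set.disjoint_union_left.2 ⟨d13, d23⟩) (Set.toFinite _) (Set.toFinite _)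
  rw [e1, h.orbit_card, h.orbit_card, h.orbit_card] at e2
  have e3 := Set.ncard_le_card (orbit X Q1 ∪ orbit X Q2 ∪ orbit X Q3)
  rw [e2, h22] at e3
  omega

omit [Finite G] in
theorem comm_smul {c x : G} (h : c * x = x * c) (Q : Sylow 3 G) : c • x • Q = x • c • Q := by
  rw [← mul_smul, h, mul_smul]

theorem XCtx.pow_eq (h : XCtx X) {x : G} (hx : x ∈ X) : x ^ 11 = 1 := by
  have : (⟨x, hx⟩ : X) ^ Nat.card X = 1 := pow_card_eq_one'
  rw [h.card] at this
  exact congrArg Subtype.val this

theorem XCtx.sq (h : XCtx X) {x : G} (hx : x ∈ X) (h2 : x ^ 2 = 1) : x = 1 := by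
  have h1 := h.pow_eq hx
  have : x ^ 11 = (x ^ 2) ^ 5 * x := by rw [← pow_mul, ← pow_succ]
  rw [h2, one_pow, one_mul] at this
  rw [← this, h1]

theorem XCtx.c1 [IsSimpleGroup G] (h : XCtx X) (h22 : Nat.card (Sylow 3 G) = 22) {c : G}
    (hc : ∀ x ∈ X, c * x = x * c) : c ^ 22 = 1 := by
  apply faithful h22
  intro Q
  obtain ⟨y, hy, hyQ⟩ : ∃ y ∈ X, (c ^ 2) • Q = y • Q := by
    obtain ⟨x, hx, h1 | h1 | h1⟩ := h.three h22 Q (c • Q) (c • c • Q)
    · refine ⟨x * x, mul_mem hx hx, ?_⟩
      rw [pow_two, mul_smul, ← h1, comm_smul (hc x hx), ← h1, mul_smul]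
    · exact ⟨x, hx, by rw [pow_two, mul_smul, h1]⟩
    · refine ⟨x * x, mul_mem hx hx, ?_⟩
      rw [← comm_smul (hc x hx)] at h1
      have h2 := smul_left_cancel _ h1
      rw [pow_two, mul_smul, ← h2, comm_smul (hc x hx), ← h2, mul_smul]
  have hcy : Commute (c ^ 2) y := by
    have : Commute c y := hc y hy
    exact this.pow_left 2
  have key : ∀ k : ℕ, ((c ^ 2) ^ k) • Q = (y ^ k) • Q := by
    intro k
    induction k with
    | zero => simp
    | succ k ih =>
      rw [pow_succ', mul_smul, ih]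
      have h3 : c ^ 2 * y ^ k = y ^ k * c ^ 2 := (hcy.pow_right k)
      rw [comm_smul h3, hyQ, ← mul_smul, ← pow_succ]
  have := key 11
  rw [← pow_mul, h.pow_eq hy, one_smul] at this
  exact this

theorem no_fixed_sign [IsSimpleGroup G] (h22 : Nat.card (Sylow 3 G) = 22) {c : G} (hc2 : c ^ 2 = 1)
    (hf : ∀ Q : Sylow 3 G, c • Q ≠ Q) : False := by
  classical
  letI : Fintype (Sylow 3 G) := Fintype.ofFinite _
  have h1 := sign_trivial h22 (Ω := Sylow 3 G) c
  have h2 : (MulAction.toPermHom G (Sylow 3 G) c) ^ 2 = 1 := by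
    rw [← map_pow, hc2, map_one]
  rw [Equiv.Perm.sign_of_pow_two_eq_one h2] at h1
  have h3 : Fintype.card (Function.fixedPoints ⇑(MulAction.toPermHom G (Sylow 3 G) c)) = 0 := by
    rw [Fintype.card_eq_zero_iff]
    refine ⟨fun x => hf x.1 x.2⟩
  rw [h3, ← Nat.card_eq_fintype_card, h22] at h1
  revert h1
  decide

theorem XCtx.c2 [IsSimpleGroup G] (h : XCtx X) (h22 : Nat.card (Sylow 3 G) = 22) {c : G}
    (hc : ∀ x ∈ X, c * x = x * c) (hc2 : c ^ 2 = 1) : c = 1 := by
  by_contra hne
  by_cases hf : ∃ Q : Sylow 3 G, c • Q = Q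
  · obtain ⟨Q, hQ⟩ := hf
    apply hne
    apply faithful h22
    intro R
    obtain ⟨x, hx, h1 | h1 | h1⟩ := h.three h22 Q R (c • R)
    · rw [← h1, comm_smul (hc x hx), hQ]
    · have h2 : R = x • Q := by
        have : c • c • R = c • x • Q := by rw [h1]
        rw [← mul_smul, ← pow_two, hc2, one_smul, comm_smul (hc x hx), hQ] at this
        exact this
      rw [h2, comm_smul (hc x hx), hQ]
    · have h2 : x • x • R = R := by
        calc x • x • R = x • c • R := by rw [h1]
          _ = c • x • R := by rw [comm_smul (hc x hx)]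
          _ = c • c • R := by rw [h1]
          _ = R := by rw [← mul_smul, ← pow_two, hc2, one_smul]
      rw [← mul_smul] at h2
      have h3 := h.free (x * x) (mul_mem hx hx) R h2
      rw [← pow_two] at h3
      rw [← h1, h.sq hx h3, one_smul]
  · push Not at hf
    exact no_fixed_sign h22 hc2 hf

theorem XCtx.c3 [IsSimpleGroup G] (h : XCtx X) (h22 : Nat.card (Sylow 3 G) = 22) :
    IsPGroup 11 (centralizer (X : Set G)) := by
  have hodd : ¬ 2 ∣ Nat.card (centralizer (X : Set G)) := by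
    intro h2
    obtain ⟨c, hc⟩ := exists_prime_orderOf_dvd_card' 2 h2
    have h3 : (c : G) = 1 := by
      apply h.c2 h22
      · intro x hx
        exact ((mem_centralizer_iff.mp c.2) x hx).symm
      · have := pow_orderOf_eq_one c
        rw [hc] at this
        exact congrArg Subtype.val this
    have h4 : c = 1 := Subtype.ext h3
    rw [h4, orderOf_one] at hc
    omega
  intro c
  refine ⟨1, ?_⟩
  rw [pow_one, ← orderOf_dvd_iff_pow_eq_one]
  have h1 : orderOf c ∣ 22 := by
    rw [orderOf_dvd_iff_pow_eq_one]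
    apply Subtype.ext
    have := h.c1 h22 (c := c) (fun x hx => ((mem_centralizer_iff.mp c.2) x hx).symm)
    simpa using this
  have h2 : ¬ 2 ∣ orderOf c := fun h' => hodd (h'.trans (orderOf_dvd_natCard c))
  have h3 : (orderOf c).Coprime 2 := ((Nat.Prime.coprime_iff_not_dvd Nat.prime_two).2 h2).symm
  exact h3.dvd_of_dvd_mul_left (by rw [show 2 * 11 = 22 by norm_num]; exact h1)

end X

/-- main output -/
structure XOut (G : Type*) [Group G] [Finite G] (X : Sylow 11 G) (e : ℕ) : Prop where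
  card : Nat.card (X : Subgroup G) = 11
  cent : centralizer ((X : Subgroup G) : Set G) = X
  cardN : Nat.card (normalizer ((X : Subgroup G) : Set G)) = 11 * e
  cardG : Nat.card G = 11 * e * Nat.card (Sylow 11 G)
  edvd : e ∣ 10
  ene : e ≠ 1

theorem exists_X [IsSimpleGroup G] (h22 : Nat.card (Sylow 3 G) = 22) (P : Sylow 3 G)
    (h11 : ¬ 11 ∣ Nat.card (stabilizer G P)) (X : Sylow 11 G) : XCtx (X : Subgroup G) ∧
    ∃ e, XOut G X e := by
  have hall : ∀ Q : Sylow 3 G, ¬ 11 ∣ Nat.card (stabilizer G Q) := by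
    intro Q
    have h1 := card_stab h22 Q
    have h2 := card_stab h22 P
    have : Nat.card (stabilizer G Q) = Nat.card (stabilizer G P) := by omega
    rw [this]; exact h11
  have hcG := card_stab h22 P
  have hX11 : Nat.card (X : Subgroup G) = 11 := by
    rw [X.card_eq_multiplicity, ← hcG, Nat.factorization_mul Nat.card_pos.ne' (by norm_num)]
    simp only [Finsupp.add_apply]
    rw [Nat.factorization_eq_zero_of_not_dvd h11]
    rw [show (22 : ℕ) = 2 * 11 by norm_num, Nat.factorization_mul (by norm_num) (by norm_num)]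
    simp only [Finsupp.add_apply]
    rw [Nat.factorization_eq_zero_of_not_dvd (by norm_num),
      (by norm_num : Nat.Prime 11).factorization]
    simp
  have hctx : XCtx (X : Subgroup G) := by
    refine ⟨hX11, ?_⟩
    intro x hx Q hxQ
    by_contra hne
    apply hall Q
    have h1 : orderOf x = 11 := by
      have h2 : orderOf (⟨x, hx⟩ : (X : Subgroup G)) ∣ Nat.card (X : Subgroup G) := orderOf_dvd_natCard _
      rw [hX11, Subgroup.orderOf_mk] at h2
      rcases (Nat.dvd_prime (by norm_num)).1 h2 with h3 | h3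
      · exact absurd (orderOf_eq_one_iff.mp h3) hne
      · exact h3
    rw [← h1]
    have hxQ' : x ∈ stabilizer G Q := hxQ
    have h2 : orderOf (⟨x, hxQ'⟩ : stabilizer G Q) ∣ Nat.card (stabilizer G Q) := orderOf_dvd_natCard _
    rwa [Subgroup.orderOf_mk] at h2
  refine ⟨hctx, ?_⟩
  have hcyc : IsCyclic (X : Subgroup G) := isCyclic_of_prime_card (p := 11) hX11
  have hle : (X : Subgroup G) ≤ centralizer ((X : Subgroup G) : Set G) := by
    intro x hx
    rw [mem_centralizer_iff]
    intro y hy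
    haveI : IsMulCommutative (X : Subgroup G) := IsCyclic.isMulCommutative
    exact congrArg Subtype.val (this.is_comm.comm ⟨y, hy⟩ ⟨x, hx⟩)
  have hcent : centralizer ((X : Subgroup G) : Set G) = X :=
    X.is_maximal' (hctx.c3 h22) hle
  set e := (X : Subgroup G).relIndex (normalizer ((X : Subgroup G) : Set G)) with he
  have h1 := card_mul_relIndex (le_normalizer (H := (X : Subgroup G)))
  rw [hX11] at h1
  have h2 : e ∣ 10 := by
    have := relIndex_centralizer_dvd_of_cyclic (X : Subgroup G)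
    rw [hcent, hX11, Nat.totient_prime (by norm_num)] at this
    exact this
  refine ⟨e, hX11, hcent, h1.symm, ?_, h2, ?_⟩
  · rw [h1, X.card_eq_index_normalizer]
    exact (Subgroup.card_mul_index _).symm
  · intro h3
    have h4 : normalizer ((X : Subgroup G) : Set G) ≤ X := relIndex_eq_one.mp h3
    obtain ⟨N, hN, hNi⟩ := exists_normal_index_of_normalizer_le X (by
      refine le_trans h4 ?_
      exact hle)
    rw [hX11] at hNi
    rcases hN.eq_bot_or_eq_top with h5 | h5
    · rw [h5, index_bot, ← hcG] at hNi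
      omega
    · rw [h5, index_top] at hNi
      omega

theorem exists_s [IsSimpleGroup G] (h22 : Nat.card (Sylow 3 G) = 22) {X : Sylow 11 G} {e : ℕ}
    (hctx : XCtx (X : Subgroup G)) (h : XOut G X e) (he : 2 ∣ e) :
    ∃ s : G, s ∈ normalizer ((X : Subgroup G) : Set G) ∧ s ^ 2 = 1 ∧ s ≠ 1 ∧
      (∀ x ∈ (X : Subgroup G), s * x * s⁻¹ = x⁻¹) ∧ (∃ Q : Sylow 3 G, s • Q = Q) ∧
      ∀ Q1 Q2 Q3 : Sylow 3 G, s • Q1 = Q1 → s • Q2 = Q2 → s • Q3 = Q3 → Q1 = Q2 ∨ Q1 = Q3 ∨ Q2 = Q3 := by
  have h2 : 2 ∣ Nat.card (normalizer ((X : Subgroup G) : Set G)) := by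
    rw [h.cardN]; exact he.mul_left _
  obtain ⟨⟨s, hsN⟩, hs⟩ := exists_prime_orderOf_dvd_card' 2 h2
  rw [Subgroup.orderOf_mk] at hs
  have hs2 : s ^ 2 = 1 := by rw [← hs]; exact pow_orderOf_eq_one s
  have hs1 : s ≠ 1 := by
    rintro rfl
    rw [orderOf_one] at hs
    omega
  have hss : s * s = 1 := by rw [← pow_two]; exact hs2
  have hsinv : s⁻¹ = s := inv_eq_of_mul_eq_one_left hss
  have hab : ∀ x ∈ (X : Subgroup G), ∀ y ∈ (X : Subgroup G), x * y = y * x := by
    intro x hx y hy
    have : y ∈ centralizer ((X : Subgroup G) : Set G) := by rw [h.cent]; exact hy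
    exact (mem_centralizer_iff.mp this) x hx
  have hinv : ∀ x ∈ (X : Subgroup G), s * x * s⁻¹ = x⁻¹ := by
    intro x hx
    have hsx : s * x * s⁻¹ ∈ (X : Subgroup G) := (mem_normalizer_iff.mp hsN x).mp hx
    set f := x * (s * x * s⁻¹) with hf
    have hfX : f ∈ (X : Subgroup G) := mul_mem hx hsx
    have hsf : s * f = f * s := by
      have h3 : s * f * s⁻¹ = f := by
        calc s * f * s⁻¹ = (s * x * s⁻¹) * (s * s * x * s⁻¹ * s⁻¹) := by rw [hf]; group
          _ = (s * x * s⁻¹) * x := by rw [hss, hsinv, one_mul, mul_assoc x, hss, mul_one]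
          _ = f := by rw [hf, hab _ hsx _ hx]
      calc s * f = (s * f * s⁻¹) * s := by group
        _ = f * s := by rw [h3]
    by_contra hne
    have hf1 : f ≠ 1 := by
      intro h4
      apply hne
      exact (inv_eq_of_mul_eq_one_right h4).symm
    -- f generates X
    have hz : zpowers f = (X : Subgroup G) := by
      apply eq_of_le_of_card_ge (by rw [zpowers_le]; exact hfX)
      rw [h.card, Nat.card_zpowers]
      have h5 : orderOf (⟨f, hfX⟩ : (X : Subgroup G)) ∣ Nat.card (X : Subgroup G) := orderOf_dvd_natCard _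
      rw [h.card, Subgroup.orderOf_mk] at h5
      rcases (Nat.dvd_prime (by norm_num)).1 h5 with h6 | h6
      · exact absurd (orderOf_eq_one_iff.mp h6) hf1
      · omega
    have hsC : s ∈ centralizer ((X : Subgroup G) : Set G) := by
      rw [mem_centralizer_iff]
      intro y hy
      rw [SetLike.mem_coe, ← hz] at hy
      obtain ⟨k, rfl⟩ := mem_zpowers_iff.mp hy
      have : Commute s f := hsf
      exact (this.zpow_right k).symm
    rw [h.cent] at hsC
    exact hs1 (hctx.sq hsC hs2)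
  refine ⟨s, hsN, hs2, hs1, hinv, ?_, ?_⟩
  · by_contra hcon
    push Not at hcon
    exact no_fixed_sign h22 hs2 hcon
  · intro Q1 Q2 Q3 h1 h2 h3
    have key : ∀ Q R : Sylow 3 G, s • Q = Q → s • R = R → ∀ x ∈ (X : Subgroup G), x • Q = R → Q = R := by
      intro Q R hQ hR x hx hxQ
      have e1 : x⁻¹ • Q = x • Q := by
        calc x⁻¹ • Q = (s * x * s⁻¹) • Q := by rw [hinv x hx]
          _ = s • x • (s⁻¹ • Q) := by rw [mul_smul, mul_smul]
          _ = s • x • Q := by rw [hsinv, hQ]
          _ = x • Q := by rw [hxQ, hR]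
      have e2 : (x * x) • Q = Q := by
        rw [mul_smul, ← e1, smul_inv_smul]
      have e3 := hctx.free (x * x) (mul_mem hx hx) Q e2
      rw [← pow_two] at e3
      rw [← hxQ, hctx.sq hx e3, one_smul]
    obtain ⟨x, hx, h4 | h4 | h4⟩ := hctx.three h22 Q1 Q2 Q3
    · exact Or.inl (key _ _ h1 h2 x hx h4)
    · exact Or.inr (Or.inl (key _ _ h1 h3 x hx h4))
    · exact Or.inr (Or.inr (key _ _ h2 h3 x hx h4))

end CfsgLib.H7Tw
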