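import Mathlib
import Cfsg.Agent.LibH7TwC

/-! `n_3 ≠ 22`: the case `|P| > 3`. -/

set_option autoImplicit false

namespace CfsgLib.H7Tw

open Subgroup MulAction CfsgLib.H7 CfsgLib.H7Hall CfsgLib.H7Act CfsgLib.FgSub
open scoped Pointwise Classical

variable {G : Type*} [Group G] [Finite G]

noncomputable local instance : Fintype (Sylow 3 G) := Fintype.ofFinite _

/-- the 4-line structure -/
structure Lines (G : Type*) [Group G] [Finite G] : Prop where
  h22 : Nat.card (Sylow 3 G) = 22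
  n3 : ∀ P : Sylow 3 G, Nat.card (Sph P 3) = 12
  n9 : ∀ P : Sylow 3 G, Nat.card (Sph P 9) = 9
  four : ∀ P : Sylow 3 G, ((EE G).filter (fun E => E ≤ (P : Subgroup G))).card = 4
  line : ∀ E ∈ EE G, (LF E).card = 4

theorem card_orbit_sub {P R : Sylow 3 G} {E : Subgroup G} (hE : E ≤ (P : Subgroup G)) :
    Nat.card (orbit E R) = (R : Subgroup G).relIndex E := by
  have hst : stabilizer E R = (R : Subgroup G).subgroupOf E := by
    ext ⟨g, hg⟩
    rw [mem_stabilizer_iff, Subgroup.mem_subgroupOf]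
    have h1 : (⟨g, hE hg⟩ : (P : Subgroup G)) ∈ stabilizer (P : Subgroup G) R ↔
        (⟨g, hE hg⟩ : (P : Subgroup G)) ∈ (R : Subgroup G).subgroupOf P := by
      rw [stabilizer_sylow_sylow]
    exact h1
  rw [Subgroup.relIndex, ← hst, MulAction.index_stabilizer, Nat.card_coe_set_eq]

theorem orbit_eq_sph {P R : Sylow 3 G} (hn : Nat.card (Sph P 9) = 9) (hR : R ∈ Sph P 9) :
    orbit (P : Subgroup G) R = Sph P 9 := by
  have h1 : orbit (P : Subgroup G) R ⊆ Sph P 9 := by
    rintro _ ⟨g, rfl⟩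
    exact sph_inv P 9 g g.2 R hR
  apply Set.eq_of_subset_of_ncard_le h1
  rw [← Nat.card_coe_set_eq, ← Nat.card_coe_set_eq, card_orbit_sylow, hn]
  exact (show (R : Subgroup G).relIndex P = 9 from hR).ge

theorem mem_EE_of_sph {P R : Sylow 3 G} (hR : R ∈ Sph P 3) : (P : Subgroup G) ⊓ R ∈ EE G := by
  have hR' : (R : Subgroup G).relIndex P = 3 := hR
  rw [mem_EE]
  refine ⟨?_, ?_⟩
  · intro Q
    rw [card_sylow_eq Q P]
    have := card_mul_relIndex (inf_le_left : (P : Subgroup G) ⊓ R ≤ P)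
    rw [inf_relIndex_left, hR', mul_comm] at this
    exact this
  · have : ({P, R} : Finset (Sylow 3 G)) ⊆ LF ((P : Subgroup G) ⊓ R) := by
      intro Q hQ
      rw [mem_LF]
      rcases Finset.mem_insert.1 hQ with rfl | hQ
      · exact inf_le_left
      · rw [Finset.mem_singleton] at hQ
        subst hQ
        exact inf_le_right
    have h2 := Finset.card_le_card this
    rwa [Finset.card_pair (dist_ne (by omega)).symm] at h2

/-- `D ≤ E`. -/
theorem D_le_E [IsSimpleGroup G] (h : Lines G) {P R : Sylow 3 G} (hR : R ∈ Sph P 9) {E : Subgroup G}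
    (hE : E ∈ EE G) (hEP : E ≤ (P : Subgroup G)) : (P : Subgroup G) ⊓ R ≤ E := by
  by_contra hcon
  set D := (P : Subgroup G) ⊓ R with hD
  have hcD : Nat.card D * 9 = Nat.card (P : Subgroup G) := by
    have := card_mul_relIndex (inf_le_left : (P : Subgroup G) ⊓ R ≤ P)
    rwa [inf_relIndex_left, show (R : Subgroup G).relIndex P = 9 from hR] at this
  have hcE : 3 * Nat.card E = Nat.card (P : Subgroup G) := (mem_EE.1 hE).1 P
  -- card of `E ⊓ R`
  have h1 : 9 ≤ (R : Subgroup G).relIndex E := by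
    have h2 := card_mul_relIndex (inf_le_left : E ⊓ (R : Subgroup G) ≤ E)
    rw [inf_relIndex_left] at h2
    have h3 : E ⊓ (R : Subgroup G) < D := by
      refine lt_of_le_of_ne (inf_le_inf_right _ hEP) ?_
      intro h4
      apply hcon
      rw [← h4]; exact inf_le_left
    have h4 : Nat.card (E ⊓ (R : Subgroup G) : Subgroup G) ∣ Nat.card D := card_dvd_of_le h3.le
    have h5 : Nat.card (E ⊓ (R : Subgroup G) : Subgroup G) ≠ Nat.card D := by
      intro h6
      exact h3.ne (eq_of_le_of_card_ge h3.le (by rw [h6]))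
    have hDp : IsPGroup 3 D := P.isPGroup'.to_le inf_le_left
    have hEp : IsPGroup 3 (E ⊓ (R : Subgroup G) : Subgroup G) := P.isPGroup'.to_le (inf_le_left.trans hEP)
    obtain ⟨a, ha⟩ := IsPGroup.iff_card.mp hDp
    obtain ⟨b, hb⟩ := IsPGroup.iff_card.mp hEp
    rw [ha, hb] at h4 h5
    have h6 : b ≤ a := (Nat.pow_dvd_pow_iff_le_right (by norm_num)).1 h4
    have h7 : b < a := lt_of_le_of_ne h6 (fun h => h5 (by rw [h]))
    have h8 : 3 ^ b * 3 ≤ 3 ^ a := by
      rw [← pow_succ]; exact Nat.pow_le_pow_right (by norm_num) h7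
    rw [hb] at h2
    rw [ha] at hcD
    have h9 : 0 < 3 ^ b := pow_pos (by norm_num) _
    have h10 : Nat.card E = 3 * 3 ^ a := by omega
    rw [h10] at h2
    by_contra h11
    push Not at h11
    have h12 : 3 ^ b * (R : Subgroup G).relIndex E ≤ 3 ^ b * 8 := Nat.mul_le_mul_left _ (by omega)
    omega
  have hEorb : orbit E R = Sph P 9 := by
    have h2 : orbit E R ⊆ Sph P 9 := by
      rintro _ ⟨g, rfl⟩
      exact sph_inv P 9 g (hEP g.2) R hR
    apply Set.eq_of_subset_of_ncard_le h2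
    rw [← Nat.card_coe_set_eq, ← Nat.card_coe_set_eq, card_orbit_sub hEP, h.n9]
    exact h1
  -- another point on the line
  obtain ⟨S, hS, hSP⟩ : ∃ S ∈ LF E, S ≠ P := by
    by_contra hc
    push Not at hc
    have : LF E ⊆ {P} := fun S hS => Finset.mem_singleton.2 (hc S hS)
    have h2 := Finset.card_le_card this
    rw [Finset.card_singleton, h.line E hE] at h2
    omega
  rw [mem_LF] at hS
  have hRS : R ∈ Sph S 9 := by
    have h2 : 9 ≤ (R : Subgroup G).relIndex S := by
      rw [← card_orbit_sylow]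
      refine le_trans h1 ?_
      rw [← card_orbit_sub hEP]
      apply Nat.card_mono (Set.toFinite _)
      rintro _ ⟨g, rfl⟩
      exact ⟨⟨g, hS g.2⟩, rfl⟩
    rcases dist_cases h.h22 (dist_ne (P := S) (R := R) (by omega)) with h3 | h3
    · omega
    · exact h3
  have hBB : Sph P 9 = Sph S 9 := by
    have h2 : Sph P 9 ⊆ Sph S 9 := by
      rw [← hEorb, ← orbit_eq_sph (h.n9 S) hRS]
      rintro _ ⟨g, rfl⟩
      exact ⟨⟨g, hS g.2⟩, rfl⟩
    apply Set.eq_of_subset_of_ncard_le h2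
    rw [← Nat.card_coe_set_eq, ← Nat.card_coe_set_eq, h.n9, h.n9]
  -- the setwise stabilizer
  have hsm : ∀ (g : G) (Q : Sylow 3 G), g • Sph Q 9 = Sph (g • Q) 9 := by
    intro g Q
    ext T
    rw [Set.mem_smul_set_iff_inv_smul_mem, ← sph_smul g Q 9, smul_inv_smul]
  have hM := stab_maximal h.h22 P (M := stabilizer G (Sph P 9)) (by
    intro g hg
    rw [mem_stabilizer_iff] at hg ⊢
    rw [hsm, hg])
  obtain ⟨g, hg⟩ := MulAction.exists_smul_eq G P S
  have hgM : g ∈ stabilizer G (Sph P 9) := by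
    rw [mem_stabilizer_iff, hsm, hg, hBB]
  rcases hM with hM | hM
  · rw [hM, mem_stabilizer_iff] at hgM
    exact hSP (hg.symm.trans hgM)
  · obtain ⟨k, hk⟩ := MulAction.exists_smul_eq G R P
    have hkM : k ∈ stabilizer G (Sph P 9) := by rw [hM]; trivial
    rw [mem_stabilizer_iff] at hkM
    have h2 : k • R ∈ k • Sph P 9 := Set.smul_mem_smul_set hR
    rw [hkM, hk] at h2
    have h3 : (P : Subgroup G).relIndex P = 9 := h2
    rw [relIndex_self] at h3
    omega

theorem two_E (h : Lines G) (P : Sylow 3 G) : ∃ E1 ∈ EE G, ∃ E2 ∈ EE G, E1 ≤ (P : Subgroup G) ∧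
    E2 ≤ (P : Subgroup G) ∧ E1 ≠ E2 := by
  have h4 := h.four P
  obtain ⟨E1, h1, E2, h2, hne⟩ := Finset.one_lt_card.mp (by rw [h4]; norm_num :
    1 < ((EE G).filter (fun E => E ≤ (P : Subgroup G))).card)
  rw [Finset.mem_filter] at h1 h2
  exact ⟨E1, h1.1, E2, h2.1, h1.2, h2.2, hne⟩

theorem card_inf_E {P : Sylow 3 G} {E1 E2 : Subgroup G} (h1 : E1 ∈ EE G) (h2 : E2 ∈ EE G)
    (h1P : E1 ≤ (P : Subgroup G)) (hne : E1 ≠ E2) :
    Nat.card (E1 ⊓ E2 : Subgroup G) * 9 ≤ Nat.card (P : Subgroup G) := by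
  have hc1 := (mem_EE.1 h1).1 P
  have hc2 := (mem_EE.1 h2).1 P
  have h3 : Nat.card (E1 ⊓ E2 : Subgroup G) ∣ Nat.card E1 := card_dvd_of_le inf_le_left
  have h4 : Nat.card (E1 ⊓ E2 : Subgroup G) ≠ Nat.card E1 := by
    intro h5
    have h6 : E1 ⊓ E2 = E1 := eq_of_le_of_card_ge inf_le_left (by rw [h5])
    have h7 : E1 ≤ E2 := inf_eq_left.mp h6
    exact hne (eq_of_le_of_card_ge h7 (by omega))
  have hEp : IsPGroup 3 E1 := P.isPGroup'.to_le h1P
  have hDp : IsPGroup 3 (E1 ⊓ E2 : Subgroup G) := hEp.to_le inf_le_left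
  obtain ⟨a, ha⟩ := IsPGroup.iff_card.mp hEp
  obtain ⟨b, hb⟩ := IsPGroup.iff_card.mp hDp
  rw [ha, hb] at h3 h4
  have h6 : b ≤ a := (Nat.pow_dvd_pow_iff_le_right (by norm_num)).1 h3
  have h7 : b < a := lt_of_le_of_ne h6 (fun h => h4 (by rw [h]))
  have h8 : 3 ^ b * 3 ≤ 3 ^ a := by
    rw [← pow_succ]; exact Nat.pow_le_pow_right (by norm_num) h7
  rw [hb, ← hc1, ha]
  omega

theorem card_nine [IsSimpleGroup G] (h : Lines G) (P : Sylow 3 G) : Nat.card (P : Subgroup G) = 9 := by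
  have h9 := h.n9 P
  have hne : (Sph P 9).Nonempty := by
    rw [← Set.ncard_pos, ← Nat.card_coe_set_eq, h9]; norm_num
  obtain ⟨R, hR⟩ := hne
  set D := (P : Subgroup G) ⊓ R with hD
  have hcD : Nat.card D * 9 = Nat.card (P : Subgroup G) := by
    have := card_mul_relIndex (inf_le_left : (P : Subgroup G) ⊓ R ≤ P)
    rwa [inf_relIndex_left, show (R : Subgroup G).relIndex P = 9 from hR] at this
  obtain ⟨E1, h1, E2, h2, h1P, h2P, hne⟩ := two_E h P
  have hDE : D = E1 ⊓ E2 := by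
    apply eq_of_le_of_card_ge (le_inf (D_le_E h hR h1 h1P) (D_le_E h hR h2 h2P))
    have h5 := card_inf_E h1 h2 h1P hne
    rw [← hcD] at h5
    exact Nat.le_of_mul_le_mul_right h5 (by norm_num)
  have hDn : ∀ g ∈ (P : Subgroup G), cj g D = D := by
    intro g hg
    rw [hDE, cj_inf, E_normal h1 h1P g hg, E_normal h2 h2P g hg]
  have hall : ∀ Q : Sylow 3 G, D ≤ Q := by
    intro Q
    by_cases hQP : Q = P
    · rw [hQP]; exact inf_le_left
    · rcases dist_cases h.h22 hQP with h3 | h3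
      · exact (D_le_E h hR (mem_EE_of_sph h3) inf_le_left).trans inf_le_right
      · have h4 : Q ∈ orbit (P : Subgroup G) R := by rw [orbit_eq_sph h9 hR]; exact h3
        obtain ⟨g, rfl⟩ := h4
        have h5 : cj (g : G) D ≤ cj (g : G) (R : Subgroup G) := cj_mono inf_le_right
        rw [hDn g g.2] at h5
        exact h5
  have hbot := bot_of_le_all h.h22 hall
  rw [hbot] at hcD
  simp only [Subgroup.card_bot] at hcD
  omega

theorem cardE (h : Lines G) [IsSimpleGroup G] {E : Subgroup G} (hE : E ∈ EE G) : Nat.card E = 3 := by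
  obtain ⟨P⟩ := (inferInstance : Nonempty (Sylow 3 G))
  have := (mem_EE.1 hE).1 P
  rw [card_nine h] at this
  omega

theorem inf_E (h : Lines G) [IsSimpleGroup G] {P : Sylow 3 G} {E1 E2 : Subgroup G} (h1 : E1 ∈ EE G)
    (h2 : E2 ∈ EE G) (h1P : E1 ≤ (P : Subgroup G)) (hne : E1 ≠ E2) : E1 ⊓ E2 = ⊥ := by
  have := card_inf_E h1 h2 h1P hne
  rw [card_nine h] at this
  rw [← Subgroup.card_eq_one]
  have := Nat.card_pos (α := (E1 ⊓ E2 : Subgroup G))
  omega

/-- every nontrivial element of `P` is in some `E`. -/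
theorem exists_E (h : Lines G) [IsSimpleGroup G] {P : Sylow 3 G} {u : G} (hu : u ∈ (P : Subgroup G))
    (hu1 : u ≠ 1) : ∃ E ∈ EE G, E ≤ (P : Subgroup G) ∧ u ∈ E := by
  letI : Fintype G := Fintype.ofFinite G
  set T := (EE G).filter (fun E => E ≤ (P : Subgroup G)) with hT
  let F : Subgroup G → Finset G := fun E => Finset.univ.filter (fun x => x ∈ E ∧ x ≠ 1)
  have hF : ∀ E : Subgroup G, (F E).card = Nat.card E - 1 := by
    intro E
    have e1 : F E = (Finset.univ.filter (fun x => x ∈ E)).erase 1 := by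
      ext x
      simp only [F, Finset.mem_filter, Finset.mem_univ, true_and, Finset.mem_erase]
      tauto
    rw [e1, Finset.card_erase_of_mem (by simp)]
    congr 1
    rw [Nat.card_eq_fintype_card, ← Fintype.card_subtype]
  have hdisj : ((T : Set (Subgroup G))).PairwiseDisjoint F := by
    intro E1 h1 E2 h2 hne
    rw [Function.onFun, Finset.disjoint_left]
    intro x hx1 hx2
    rw [Finset.mem_coe, Finset.mem_filter] at h1 h2
    simp only [F, Finset.mem_filter, Finset.mem_univ, true_and] at hx1 hx2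
    have h3 : x ∈ E1 ⊓ E2 := ⟨hx1.1, hx2.1⟩
    rw [inf_E h h1.1 h2.1 h1.2 hne, mem_bot] at h3
    exact hx1.2 h3
  have hcard : (T.biUnion F).card = 8 := by
    rw [Finset.card_biUnion hdisj]
    rw [Finset.sum_congr rfl (fun E hE => by rw [hF, cardE h (Finset.mem_filter.1 hE).1])]
    rw [Finset.sum_const, h.four P]
    norm_num
  have hsub : T.biUnion F ⊆ F (P : Subgroup G) := by
    intro x hx
    rw [Finset.mem_biUnion] at hx
    obtain ⟨E, hE, hx⟩ := hx
    rw [Finset.mem_filter] at hE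
    simp only [F, Finset.mem_filter, Finset.mem_univ, true_and] at hx ⊢
    exact ⟨hE.2 hx.1, hx.2⟩
  have heq : T.biUnion F = F (P : Subgroup G) := by
    apply Finset.eq_of_subset_of_card_le hsub
    rw [hcard, hF, card_nine h]
  have hmem : u ∈ F (P : Subgroup G) := by
    simp only [F, Finset.mem_filter, Finset.mem_univ, true_and]
    exact ⟨hu, hu1⟩
  rw [← heq, Finset.mem_biUnion] at hmem
  obtain ⟨E, hE, hx⟩ := hmem
  rw [Finset.mem_filter] at hE
  simp only [F, Finset.mem_filter, Finset.mem_univ, true_and] at hx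
  exact ⟨E, hE.1, hE.2, hx.1⟩

theorem comm_P (h : Lines G) [IsSimpleGroup G] {P : Sylow 3 G} {x y : G} (hx : x ∈ (P : Subgroup G))
    (hy : y ∈ (P : Subgroup G)) : x * y = y * x := by
  have h1 : IsMulCommutative (P : Subgroup G) :=
    IsPGroup.isMulCommutative_of_card_eq_prime_sq (p := 3) (by rw [card_nine h]; norm_num)
  exact congrArg Subtype.val (h1.is_comm.comm ⟨x, hx⟩ ⟨y, hy⟩)

/-- the conjugation action on subgroups -/
@[reducible] def conjSub (G : Type*) [Group G] : MulAction G (Subgroup G) :=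
  MulAction.compHom (Subgroup G) (MulAut.conj : G →* MulAut G)

@[reducible] def conjEl (G : Type*) [Group G] : MulAction G G :=
  MulAction.compHom G (MulAut.conj : G →* MulAut G)

theorem fix_E (h : Lines G) [IsSimpleGroup G] {P : Sylow 3 G} {g : G} {r : ℕ} (hr : r.Prime)
    (hr5 : 5 ≤ r) (hg : orderOf g = r) (hgP : g • P = P) :
    ∀ E ∈ EE G, E ≤ (P : Subgroup G) → cj g E = E := by
  letI := conjSub G
  intro E hE hEP
  have h1 := fixed_of_card_lt (Ω := Subgroup G) hr hg
    (((EE G).filter (fun E => E ≤ (P : Subgroup G)) : Finset (Subgroup G)) : Set (Subgroup G)) (by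
      intro F hF
      rw [Finset.mem_coe, Finset.mem_filter] at hF ⊢
      refine ⟨conj_mem_EE g hF.1, ?_⟩
      have h2 : cj g F ≤ cj g (P : Subgroup G) := cj_mono hF.2
      have h3 : cj g (P : Subgroup G) = P := congrArg (fun Q : Sylow 3 G => (Q : Subgroup G)) hgP
      rw [h3] at h2
      exact h2) (by
      have h4 := h.four P
      have h5 : Nat.card ((((EE G).filter (fun E => E ≤ (P : Subgroup G)) : Finset (Subgroup G)) : Set (Subgroup G))) = 4 := by
        rw [← h4, Nat.card_eq_fintype_card]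
        exact Fintype.card_coe _
      rw [h5]; omega)
  exact h1 E (by rw [Finset.mem_coe, Finset.mem_filter]; exact ⟨hE, hEP⟩)

theorem LF_inv {E : Subgroup G} {g : G} (hE : cj g E = E) : ∀ Q ∈ LF E, g • Q ∈ LF E := by
  intro Q hQ
  rw [mem_LF] at hQ ⊢
  rw [← hE]
  exact Subgroup.map_mono hQ

theorem fix_lines (h : Lines G) [IsSimpleGroup G] {P : Sylow 3 G} {g : G} {r : ℕ} (hr : r.Prime)
    (hr5 : 5 ≤ r) (hg : orderOf g = r) (hgP : g • P = P) :
    ∀ Q ∈ Sph P 3, g • Q = Q := by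
  intro Q hQ
  have hE := mem_EE_of_sph hQ
  have h1 := fix_E h hr hr5 hg hgP _ hE inf_le_left
  have h2 := fixed_of_card_lt (Ω := Sylow 3 G) hr hg ((LF ((P : Subgroup G) ⊓ Q) : Finset (Sylow 3 G)) : Set (Sylow 3 G))
    (by
      intro R hR
      rw [Finset.mem_coe] at hR ⊢
      exact LF_inv h1 R hR) (by
      have h5 : Nat.card ((LF ((P : Subgroup G) ⊓ Q) : Finset (Sylow 3 G)) : Set (Sylow 3 G)) = 4 := by
        rw [← h.line _ hE, Nat.card_eq_fintype_card]
        exact Fintype.card_coe _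
      rw [h5]; omega)
  exact h2 Q (by rw [Finset.mem_coe, mem_LF]; exact inf_le_right)

theorem no_eleven (h : Lines G) [IsSimpleGroup G] (P : Sylow 3 G) :
    ¬ 11 ∣ Nat.card (stabilizer G P) := by
  intro hd
  obtain ⟨⟨g, hgP⟩, hg⟩ := exists_prime_orderOf_dvd_card' 11 hd
  rw [Subgroup.orderOf_mk] at hg
  rw [mem_stabilizer_iff] at hgP
  have h1 := fix_lines h (by norm_num : Nat.Prime 11) (by norm_num) hg hgP
  have h2 := fixed_of_card_lt (Ω := Sylow 3 G) (by norm_num : Nat.Prime 11) hg (Sph P 9)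
    (by
      intro R hR
      have := (sph_smul g P 9 R).2 hR
      rwa [hgP] at this) (by rw [h.n9]; norm_num)
  have h3 : g = 1 := by
    apply faithful h.h22
    intro Q
    by_cases hQP : Q = P
    · rw [hQP, hgP]
    · rcases dist_cases h.h22 hQP with h3 | h3
      · exact h1 Q h3
      · exact h2 Q h3
  rw [h3, orderOf_one] at hg
  omega

instance fact5 : Fact (Nat.Prime 5) := ⟨by norm_num⟩

theorem no_five (h : Lines G) [IsSimpleGroup G] (P : Sylow 3 G) :
    ¬ 5 ∣ Nat.card (stabilizer G P) := by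
  intro hd
  obtain ⟨⟨g, hgP⟩, hg⟩ := exists_prime_orderOf_dvd_card' 5 hd
  rw [Subgroup.orderOf_mk] at hg
  rw [mem_stabilizer_iff] at hgP
  have h1 := fix_lines h (by norm_num : Nat.Prime 5) (by norm_num) hg hgP
  -- commutes with P
  have hcomm : ∀ x ∈ (P : Subgroup G), g * x = x * g := by
    intro x hx
    by_cases hx1 : x = 1
    · rw [hx1]; simp
    obtain ⟨E, hE, hEP, hxE⟩ := exists_E h hx hx1
    have h2 := fix_E h (by norm_num : Nat.Prime 5) (by norm_num) hg hgP E hE hEP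
    letI := conjEl G
    have h3 := fixed_of_card_lt (Ω := G) (by norm_num : Nat.Prime 5) hg (E : Set G) (by
      intro y hy
      have h4 : g * y * g⁻¹ ∈ cj g E := conj_mem_cj hy
      rw [h2] at h4
      exact h4) (by
      have : Nat.card ((E : Set G)) = 3 := cardE h hE
      rw [this]; norm_num)
    have h4 : g * x * g⁻¹ = x := h3 x hxE
    exact mul_inv_eq_iff_eq_mul.mp h4
  have hPz : IsPGroup 5 (zpowers g) := by
    rw [IsPGroup.iff_card]
    exact ⟨1, by rw [Nat.card_zpowers, hg]; norm_num⟩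
  have hinv : ∀ x ∈ zpowers g, ∀ R ∈ Sph P 9, x • R ∈ Sph P 9 := by
    intro x hx R hR
    have hxP : x • P = P := by
      have : zpowers g ≤ stabilizer G P := by rw [zpowers_le]; exact hgP
      exact this hx
    have := (sph_smul x P 9 R).2 hR
    rwa [hxP] at this
  have hmod := card_modEq_fixed (p := 5) (zpowers g) hPz (Sph P 9) hinv
  rw [h.n9] at hmod
  have hne : Nat.card {ω : Sylow 3 G | ω ∈ Sph P 9 ∧ ∀ x ∈ zpowers g, x • ω = ω} ≠ 0 := by
    intro h0
    rw [h0] at hmod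
    revert hmod
    decide
  have hne2 : Nonempty {ω : Sylow 3 G | ω ∈ Sph P 9 ∧ ∀ x ∈ zpowers g, x • ω = ω} := by
    by_contra hcon
    rw [not_nonempty_iff] at hcon
    exact hne Nat.card_of_isEmpty
  obtain ⟨R, hR, hRg⟩ := hne2
  have h2 : ∀ Q ∈ Sph P 9, g • Q = Q := by
    intro Q hQ
    rw [← orbit_eq_sph (h.n9 P) hR] at hQ
    obtain ⟨x, rfl⟩ := hQ
    change g • (x : G) • R = (x : G) • R
    rw [comm_smul (hcomm x x.2), hRg g (mem_zpowers g)]
  have h3 : g = 1 := by
    apply faithful h.h22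
    intro Q
    by_cases hQP : Q = P
    · rw [hQP, hgP]
    · rcases dist_cases h.h22 hQP with h3 | h3
      · exact h1 Q h3
      · exact h2 Q h3
  rw [h3, orderOf_one] at hg
  omega

/-- involutions with a fixed point have at least three -/
theorem three_fixed (h : Lines G) [IsSimpleGroup G] {P : Sylow 3 G} {s : G} (hs2 : s ^ 2 = 1)
    (hsP : s • P = P) : ∃ Q R : Sylow 3 G, s • Q = Q ∧ s • R = R ∧ P ≠ Q ∧ P ≠ R ∧ Q ≠ R := by
  have hss : s * s = 1 := by rw [← pow_two]; exact hs2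
  have hsinv : s⁻¹ = s := inv_eq_of_mul_eq_one_left hss
  have hsPc : cj s (P : Subgroup G) = P := congrArg (fun Q : Sylow 3 G => (Q : Subgroup G)) hsP
  have hsx : ∀ x ∈ (P : Subgroup G), s * x * s⁻¹ ∈ (P : Subgroup G) := by
    intro x hx
    have : s * x * s⁻¹ ∈ cj s (P : Subgroup G) := conj_mem_cj hx
    rwa [hsPc] at this
  -- an eigenvector
  obtain ⟨v, hvP, hv1, hv⟩ : ∃ v ∈ (P : Subgroup G), v ≠ 1 ∧ (s * v * s⁻¹ = v ∨ s * v * s⁻¹ = v⁻¹) := by
    obtain ⟨u, hu⟩ : ∃ u : (P : Subgroup G), u ≠ 1 := by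
      haveI : Nontrivial (P : Subgroup G) := by
        rw [← Finite.one_lt_card_iff_nontrivial, card_nine h]; norm_num
      exact exists_ne 1
    by_cases h1 : (u : G) * (s * u * s⁻¹) = 1
    · refine ⟨u, u.2, fun h2 => hu (Subtype.ext h2), Or.inr ?_⟩
      exact (inv_eq_of_mul_eq_one_right h1).symm
    · refine ⟨(u : G) * (s * u * s⁻¹), mul_mem u.2 (hsx u u.2), h1, Or.inl ?_⟩
      calc s * ((u : G) * (s * u * s⁻¹)) * s⁻¹ = (s * u * s⁻¹) * (s * s * u * s⁻¹ * s⁻¹) := by group
        _ = (s * u * s⁻¹) * u := by rw [hss, hsinv, one_mul, mul_assoc (u : G), hss, mul_one]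
        _ = (u : G) * (s * u * s⁻¹) := comm_P h (hsx u u.2) u.2
  obtain ⟨E, hE, hEP, hvE⟩ := exists_E h hvP hv1
  have hEs : cj s E = E := by
    have h1 : cj s E ≤ (P : Subgroup G) := by
      rw [← hsPc]; exact cj_mono hEP
    by_contra hne
    have h2 := inf_E h (conj_mem_EE s hE) hE h1 hne
    have h3 : s * v * s⁻¹ ∈ cj s E ⊓ E := by
      refine ⟨conj_mem_cj hvE, ?_⟩
      rcases hv with hv | hv
      · rw [hv]; exact hvE
      · rw [hv]; exact Subgroup.inv_mem _ hvE
    rw [h2, mem_bot] at h3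
    rcases hv with hv | hv
    · rw [hv] at h3; exact hv1 h3
    · rw [hv, inv_eq_one] at h3; exact hv1 h3
  obtain ⟨R, hR, hsR⟩ := exists_fixed_of_odd (Ω := Sylow 3 G) hs2 (Sph P 9) (by
      intro R hR
      have := (sph_smul s P 9 R).2 hR
      rwa [hsP] at this) (by rw [h.n9]; decide)
  obtain ⟨Q, hQ, hsQ⟩ := exists_fixed_of_odd (Ω := Sylow 3 G) hs2
    (((LF E).erase P : Finset (Sylow 3 G)) : Set (Sylow 3 G)) (by
      intro Q hQ
      rw [Finset.mem_coe, Finset.mem_erase] at hQ ⊢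
      refine ⟨?_, LF_inv hEs Q hQ.2⟩
      intro h3
      apply hQ.1
      rw [← hsP] at h3
      exact smul_left_cancel s h3) (by
      have h6 : ((LF E).erase P).card = 3 := by
        rw [Finset.card_erase_of_mem (by rw [mem_LF]; exact hEP), h.line E hE]
      have h5 : Nat.card (((LF E).erase P : Finset (Sylow 3 G)) : Set (Sylow 3 G)) = ((LF E).erase P).card := by
        rw [Nat.card_eq_fintype_card]
        exact Fintype.card_coe _
      rw [h5, h6]; decide)
  rw [Finset.mem_coe, Finset.mem_erase, mem_LF] at hQ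
  have hPR : R ≠ P := dist_ne (by
    have : (R : Subgroup G).relIndex P = 9 := hR
    omega)
  refine ⟨Q, R, hsQ, hsR, fun h => hQ.1 h.symm, fun h => hPR h.symm, ?_⟩
  rintro rfl
  have h3 := inter_eq hE hEP hQ.2 (fun h => hQ.1 h.symm)
  have h4 := card_mul_relIndex (inf_le_left : (P : Subgroup G) ⊓ Q ≤ P)
  rw [inf_relIndex_left, h3, show (Q : Subgroup G).relIndex P = 9 from hR, cardE h hE, card_nine h] at h4
  omega

theorem not_lines [IsSimpleGroup G] : ¬ Lines G := by
  intro h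
  obtain ⟨P⟩ := (inferInstance : Nonempty (Sylow 3 G))
  obtain ⟨X⟩ := (inferInstance : Nonempty (Sylow 11 G))
  obtain ⟨hctx, e, he⟩ := exists_X h.h22 P (no_eleven h P) X
  have h5 : ¬ 5 ∣ Nat.card G := by
    rw [← card_stab h.h22 P]
    intro h5
    rcases (Nat.Prime.dvd_mul (by norm_num)).1 h5 with h6 | h6
    · exact no_five h P h6
    · omega
  have he2 : 2 ∣ e := by
    have h1 := he.edvd
    have h2 := he.ene
    have h3 : ¬ 5 ∣ e := by
      intro h4
      apply h5
      rw [he.cardG]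
      exact (h4.mul_left 11).mul_right _
    have h4 := Nat.le_of_dvd (by norm_num) h1
    interval_cases e <;> omega
  obtain ⟨s, -, hs2, hs1, -, ⟨P', hP'⟩, hthree⟩ := exists_s h.h22 hctx he he2
  obtain ⟨Q, R, hQ, hR, h1, h2, h3⟩ := three_fixed h hs2 hP'
  rcases hthree P' Q R hP' hQ hR with h4 | h4 | h4
  · exact h1 h4
  · exact h2 h4
  · exact h3 h4

/-- **Conclusion**: Sylow 3-subgroups have order 3. -/
theorem card_three [IsSimpleGroup G] (h22 : Nat.card (Sylow 3 G) = 22) (P : Sylow 3 G) :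
    Nat.card (P : Subgroup G) = 3 := by
  rcases line_structure h22 with h | h
  · exact h P
  · exfalso
    exact not_lines ⟨h22, fun P => (h P).1, fun P => (h P).2.1, fun P => (h P).2.2.1, (h P).2.2.2⟩

end CfsgLib.H7Tw
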