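import Mathlib
import Cfsg.Agent.LibH7TwD

/-! `n_3 ≠ 22`: the case `|P| = 3`: orders. -/

set_option autoImplicit false

namespace CfsgLib.H7Tw

open Subgroup MulAction CfsgLib.H7 CfsgLib.H7Hall CfsgLib.H7Act CfsgLib.FgSub
open scoped Pointwise Classical

variable {G : Type*} [Group G] [Finite G]

noncomputable local instance : Fintype (Sylow 3 G) := Fintype.ofFinite _

theorem le_cent [IsSimpleGroup G] (h22 : Nat.card (Sylow 3 G) = 22) (P : Sylow 3 G) :
    (P : Subgroup G) ≤ centralizer ((P : Subgroup G) : Set G) := by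
  haveI : IsCyclic (P : Subgroup G) := isCyclic_of_prime_card (p := 3) (card_three h22 P)
  haveI : IsMulCommutative (P : Subgroup G) := IsCyclic.isMulCommutative
  intro x hx
  rw [mem_centralizer_iff]
  intro y hy
  exact congrArg Subtype.val (this.is_comm.comm ⟨y, hy⟩ ⟨x, hx⟩)

theorem card_N [IsSimpleGroup G] (h22 : Nat.card (Sylow 3 G) = 22) (P : Sylow 3 G) :
    Nat.card (stabilizer G P) = 2 * Nat.card (centralizer ((P : Subgroup G) : Set G)) := by
  haveI : IsCyclic (P : Subgroup G) := isCyclic_of_prime_card (p := 3) (card_three h22 P)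
  have hN : stabilizer G P = normalizer ((P : Subgroup G) : Set G) := Sylow.stabilizer_eq_normalizer P
  have h1 := relIndex_centralizer_dvd_of_cyclic (P : Subgroup G)
  rw [card_three h22 P, Nat.totient_prime (by norm_num)] at h1
  have hle : centralizer ((P : Subgroup G) : Set G) ≤ normalizer ((P : Subgroup G) : Set G) :=
    centralizer_le_normalizer _
  have h2 := card_mul_relIndex hle
  rw [hN, ← h2, mul_comm]
  congr 1
  rcases (Nat.dvd_prime Nat.prime_two).1 h1 with h3 | h3
  · exfalso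
    have h4 : normalizer ((P : Subgroup G) : Set G) ≤ centralizer ((P : Subgroup G) : Set G) :=
      relIndex_eq_one.mp h3
    obtain ⟨M, hM, hMi⟩ := exists_normal_index_of_normalizer_le P h4
    rw [card_three h22 P] at hMi
    have h5 := card_stab h22 P
    rcases hM.eq_bot_or_eq_top with h6 | h6
    · rw [h6, index_bot, ← h5] at hMi
      omega
    · rw [h6, index_top] at hMi
      omega
  · exact h3

theorem dist_three [IsSimpleGroup G] (h22 : Nat.card (Sylow 3 G) = 22) {P R : Sylow 3 G} (h : R ≠ P) :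
    (R : Subgroup G).relIndex P = 3 := by
  rcases dist_cases h22 h with h1 | h1
  · exact h1
  · exfalso
    have h2 := card_mul_relIndex (inf_le_left : (P : Subgroup G) ⊓ R ≤ P)
    rw [inf_relIndex_left, h1, card_three h22 P] at h2
    omega

/-- the orbits of `P` on the other points -/
def Orb (P : Sylow 3 G) : Set (Set (Sylow 3 G)) := {O | ∃ R, R ≠ P ∧ O = orbit (P : Subgroup G) R}

theorem mem_orbit_iff' (P R S : Sylow 3 G) : S ∈ orbit (P : Subgroup G) R ↔
    orbit (P : Subgroup G) S = orbit (P : Subgroup G) R := (orbit_eq_iff).symm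

theorem smul_orbit {P : Sylow 3 G} {g : G} (hg : g • P = P) (R : Sylow 3 G) :
    g • orbit (P : Subgroup G) R = orbit (P : Subgroup G) (g • R) := by
  have hsPc : cj g (P : Subgroup G) = P := congrArg (fun Q : Sylow 3 G => (Q : Subgroup G)) hg
  ext S
  rw [Set.mem_smul_set_iff_inv_smul_mem]
  constructor
  · rintro ⟨x, hx⟩
    have hx' : (x : G) • R = g⁻¹ • S := hx
    have h1 : g * x * g⁻¹ ∈ (P : Subgroup G) := by
      have : g * x * g⁻¹ ∈ cj g (P : Subgroup G) := conj_mem_cj x.2
      rwa [hsPc] at this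
    refine ⟨⟨_, h1⟩, ?_⟩
    change (g * x * g⁻¹) • g • R = S
    rw [← mul_smul, inv_mul_cancel_right, mul_smul, hx', smul_inv_smul]
  · rintro ⟨x, hx⟩
    have hx' : (x : G) • g • R = S := hx
    have h1 : g⁻¹ * x * g ∈ (P : Subgroup G) := by
      rw [← mem_cj, hsPc]; exact x.2
    refine ⟨⟨_, h1⟩, ?_⟩
    change (g⁻¹ * x * g) • R = g⁻¹ • S
    rw [← hx', mul_smul, mul_smul]

theorem Orb_inv (P : Sylow 3 G) : ∀ g ∈ stabilizer G P, ∀ O ∈ Orb P, g • O ∈ Orb P := by
  rintro g hg _ ⟨R, hR, rfl⟩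
  rw [mem_stabilizer_iff] at hg
  refine ⟨g • R, ?_, smul_orbit hg R⟩
  intro h
  rw [← hg] at h
  exact hR (smul_left_cancel g h)

theorem card_Orb [IsSimpleGroup G] (h22 : Nat.card (Sylow 3 G) = 22) (P : Sylow 3 G) :
    Nat.card (Orb P) = 7 := by
  letI : Fintype (Set (Sylow 3 G)) := Fintype.ofFinite _
  have hmaps : ∀ R ∈ (Finset.univ : Finset (Sylow 3 G)).erase P,
      orbit (P : Subgroup G) R ∈ (Finset.univ : Finset (Set (Sylow 3 G))).filter (fun O => O ∈ Orb P) := by
    intro R hR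
    rw [Finset.mem_filter]
    exact ⟨Finset.mem_univ _, R, (Finset.mem_erase.1 hR).1, rfl⟩
  have h1 := Finset.card_eq_sum_card_fiberwise hmaps
  have h2 : ∀ O ∈ (Finset.univ : Finset (Set (Sylow 3 G))).filter (fun O => O ∈ Orb P),
      (((Finset.univ : Finset (Sylow 3 G)).erase P).filter (fun R => orbit (P : Subgroup G) R = O)).card = 3 := by
    intro O hO
    rw [Finset.mem_filter] at hO
    obtain ⟨-, R, hR, rfl⟩ := hO
    have h3 := card_orbit_sylow P R
    rw [dist_three h22 hR, Nat.card_eq_fintype_card, Fintype.card_subtype] at h3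
    refine Eq.trans ?_ h3
    congr 1
    ext S
    rw [Finset.mem_filter, Finset.mem_erase, Finset.mem_filter, mem_orbit_iff']
    constructor
    · rintro ⟨-, h⟩
      exact ⟨Finset.mem_univ _, h⟩
    · rintro ⟨-, h⟩
      refine ⟨⟨?_, Finset.mem_univ _⟩, h⟩
      rintro rfl
      rw [← mem_orbit_iff'] at h
      obtain ⟨x, hx⟩ := h
      have hx' : (x : G) • R = S := hx
      have h4 : (x : G) • S = S := smul_self_of_mem x.2
      exact hR (smul_left_cancel (x : G) (hx'.trans h4.symm))
  rw [Finset.sum_congr rfl h2, Finset.sum_const, Finset.card_erase_of_mem (Finset.mem_univ _),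
    Finset.card_univ, ← Nat.card_eq_fintype_card, h22, smul_eq_mul] at h1
  have h3 : Nat.card (Orb P) = ((Finset.univ : Finset (Set (Sylow 3 G))).filter (fun O => O ∈ Orb P)).card := by
    rw [Nat.card_eq_fintype_card, Fintype.card_subtype]
  rw [h3]
  omega

theorem cent_le_stab (P : Sylow 3 G) : centralizer ((P : Subgroup G) : Set G) ≤ stabilizer G P := by
  rw [Sylow.stabilizer_eq_normalizer P]
  exact centralizer_le_normalizer _

/-- the action of the centralizer on the orbits -/
@[reducible] def actC (P : Sylow 3 G) : MulAction (centralizer ((P : Subgroup G) : Set G)) (Orb P) :=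
  subAct _ (Orb P) (fun g hg => Orb_inv P g (cent_le_stab P hg))

noncomputable def phi (P : Sylow 3 G) : centralizer ((P : Subgroup G) : Set G) →* Equiv.Perm (Orb P) :=
  letI := actC P
  MulAction.toPermHom _ _

theorem phi_apply (P : Sylow 3 G) (c : centralizer ((P : Subgroup G) : Set G)) (O : Orb P) :
    ((phi P c O : Orb P) : Set (Sylow 3 G)) = (c : G) • (O : Set (Sylow 3 G)) := rfl

theorem ker_phi_pow [IsSimpleGroup G] (h22 : Nat.card (Sylow 3 G) = 22) (P : Sylow 3 G)
    {c : centralizer ((P : Subgroup G) : Set G)} (hc : c ∈ (phi P).ker) : c ^ 3 = 1 := by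
  apply Subtype.ext
  rw [Subgroup.coe_pow, Subgroup.coe_one]
  apply faithful h22
  intro R
  have hcP : (c : G) • P = P := cent_le_stab P c.2
  by_cases hR : R = P
  · rw [hR, pow_succ, pow_two, mul_smul, mul_smul, hcP, hcP, hcP]
  rw [MonoidHom.mem_ker] at hc
  have h1 : (c : G) • orbit (P : Subgroup G) R = orbit (P : Subgroup G) R := by
    have := congrArg (fun f : Equiv.Perm (Orb P) => ((f ⟨orbit (P : Subgroup G) R, R, hR, rfl⟩ : Orb P) : Set (Sylow 3 G))) hc
    exact this
  rw [smul_orbit hcP, ← mem_orbit_iff'] at h1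
  obtain ⟨x, hx⟩ := h1
  have hx' : (x : G) • R = (c : G) • R := hx
  have hcx : (c : G) * x = x * c := ((mem_centralizer_iff.mp c.2) x x.2).symm
  have h3 : (x : G) ^ 3 = 1 := by
    have : x ^ Nat.card (P : Subgroup G) = 1 := pow_card_eq_one'
    rw [card_three h22 P] at this
    exact congrArg Subtype.val this
  calc ((c : G) ^ 3) • R = (c : G) • (c : G) • (c : G) • R := by rw [pow_succ, pow_two, mul_smul, mul_smul]
    _ = (x : G) • (x : G) • (x : G) • R := by
        rw [← hx', comm_smul hcx, comm_smul hcx, ← hx', comm_smul hcx, ← hx']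
    _ = ((x : G) ^ 3) • R := by rw [pow_succ, pow_two, mul_smul, mul_smul]
    _ = R := by rw [h3, one_smul]

theorem P_le_ker (P : Sylow 3 G) : (P : Subgroup G).subgroupOf (centralizer ((P : Subgroup G) : Set G)) ≤ (phi P).ker := by
  intro c hc
  rw [mem_subgroupOf] at hc
  rw [MonoidHom.mem_ker]
  ext1 O
  apply Subtype.ext
  rw [phi_apply]
  obtain ⟨O, R, hR, rfl⟩ := O
  change (c : G) • orbit (P : Subgroup G) R = orbit (P : Subgroup G) R
  rw [smul_orbit (smul_self_of_mem hc), ← mem_orbit_iff']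
  exact ⟨⟨c, hc⟩, rfl⟩

theorem card_ker_phi [IsSimpleGroup G] (h22 : Nat.card (Sylow 3 G) = 22) (P : Sylow 3 G) :
    Nat.card (phi P).ker = 3 := by
  have hp : IsPGroup 3 ((phi P).ker.map (centralizer ((P : Subgroup G) : Set G)).subtype) := by
    apply IsPGroup.map
    intro c
    refine ⟨1, ?_⟩
    apply Subtype.ext
    rw [pow_one]
    exact ker_phi_pow h22 P c.2
  have hle : (P : Subgroup G) ≤ (phi P).ker.map (centralizer ((P : Subgroup G) : Set G)).subtype := by
    intro x hx
    exact ⟨⟨x, le_cent h22 P hx⟩, P_le_ker P (by rw [mem_subgroupOf]; exact hx), rfl⟩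
  have h1 := P.is_maximal' hp hle
  have h2 : Nat.card ((phi P).ker.map (centralizer ((P : Subgroup G) : Set G)).subtype) = Nat.card (phi P).ker :=
    card_map_of_injective (Subgroup.subtype_injective _)
  rw [← h2, h1, card_three h22 P]

theorem card_C [IsSimpleGroup G] (h22 : Nat.card (Sylow 3 G) = 22) (P : Sylow 3 G) :
    Nat.card (centralizer ((P : Subgroup G) : Set G)) = 3 * Nat.card (phi P).range := by
  have h1 := card_ker_phi h22 P
  have h2 := Subgroup.card_mul_index (phi P).ker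
  rw [h1, Subgroup.index_ker] at h2
  exact h2.symm

theorem not_three_dvd [IsSimpleGroup G] (h22 : Nat.card (Sylow 3 G) = 22) (P : Sylow 3 G) :
    ¬ 3 ∣ Nat.card (phi P).range := by
  have h1 := (isSyl_of_sylow P (le_cent h22 P)).2.2
  have h2 := card_mul_relIndex (le_cent h22 P)
  rw [card_three h22 P, card_C h22 P] at h2
  have h3 := Nat.eq_of_mul_eq_mul_left (by norm_num) h2
  rw [h3] at h1
  exact h1

theorem card_range_dvd [IsSimpleGroup G] (h22 : Nat.card (Sylow 3 G) = 22) (P : Sylow 3 G) :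
    Nat.card (phi P).range ∣ 560 := by
  have h1 : Nat.card (phi P).range ∣ 5040 := by
    have h2 := Subgroup.card_subgroup_dvd_card (phi P).range
    have h3 : Nat.card (Equiv.Perm (Orb P)) = 5040 := by
      rw [Nat.card_perm, card_Orb h22 P]; rfl
    rwa [h3] at h2
  have h3 := not_three_dvd h22 P
  have h4 : (Nat.card (phi P).range).Coprime 9 := by
    have : (Nat.card (phi P).range).Coprime (3 ^ 2) :=
      Nat.Coprime.pow_right 2 ((Nat.Prime.coprime_iff_not_dvd Nat.prime_three).2 h3).symm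
    exact this
  apply h4.dvd_of_dvd_mul_left
  rw [show 9 * 560 = 5040 by norm_num]
  exact h1

theorem card_G_eq [IsSimpleGroup G] (h22 : Nat.card (Sylow 3 G) = 22) (P : Sylow 3 G) :
    Nat.card G = 132 * Nat.card (phi P).range := by
  rw [← card_stab h22 P, card_N h22 P, card_C h22 P]
  ring

theorem no_eleven' [IsSimpleGroup G] (h22 : Nat.card (Sylow 3 G) = 22) (P : Sylow 3 G) :
    ¬ 11 ∣ Nat.card (stabilizer G P) := by
  rw [card_N h22 P, card_C h22 P]
  intro h
  have h1 : 11 ∣ 2 * (3 * 560) := h.trans (Nat.mul_dvd_mul_left 2 (Nat.mul_dvd_mul_left 3 (card_range_dvd h22 P)))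
  revert h1
  decide

theorem arith (m e n : ℕ) (hm : m ∣ 560) (he : e ∣ 10) (he1 : e ≠ 1) (hn : n % 11 = 1)
    (h : 12 * m = e * n) : (m = 2 ∧ e = 2) ∨ m = 5 ∨ m = 10 ∨ m = 35 ∨ m = 112 ∨ m = 560 ∨ m = 280 := by
  have key : ∀ m ∈ Nat.divisors 560, ∀ e ∈ Nat.divisors 10, e ≠ 1 → 12 * m % e = 0 → (12 * m / e) % 11 = 1 →
      (m = 2 ∧ e = 2) ∨ m = 5 ∨ m = 10 ∨ m = 35 ∨ m = 112 ∨ m = 560 ∨ m = 280 := by decide
  have he0 : 0 < e := Nat.pos_of_dvd_of_pos he (by norm_num)
  apply key m (Nat.mem_divisors.2 ⟨hm, by norm_num⟩) e (Nat.mem_divisors.2 ⟨he, by norm_num⟩) he1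
  · rw [h]; exact Nat.mul_mod_right e n
  · rw [h, Nat.mul_div_cancel_left n he0]; exact hn

theorem cases_m [IsSimpleGroup G] (h22 : Nat.card (Sylow 3 G) = 22) (P : Sylow 3 G) (X : Sylow 11 G) :
    XCtx (X : Subgroup G) ∧ ∃ e, XOut G X e ∧ ((Nat.card (phi P).range = 2 ∧ e = 2) ∨
      Nat.card (phi P).range = 5 ∨ Nat.card (phi P).range = 10 ∨ Nat.card (phi P).range = 35 ∨
      Nat.card (phi P).range = 112 ∨ Nat.card (phi P).range = 560 ∨ Nat.card (phi P).range = 280) := by
  obtain ⟨hctx, e, he⟩ := exists_X h22 P (no_eleven' h22 P) X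
  refine ⟨hctx, e, he, ?_⟩
  refine arith _ e (Nat.card (Sylow 11 G)) (card_range_dvd h22 P) he.edvd he.ene (card_sylow_modEq_one 11 G) ?_
  have h1 := he.cardG
  rw [card_G_eq h22 P] at h1
  have h2 : 11 * (12 * Nat.card (phi P).range) = 11 * (e * Nat.card (Sylow 11 G)) := by
    calc 11 * (12 * Nat.card (phi P).range) = 132 * Nat.card (phi P).range := by ring
      _ = 11 * e * Nat.card (Sylow 11 G) := h1
      _ = _ := by ring
  exact Nat.eq_of_mul_eq_mul_left (by norm_num) h2

end CfsgLib.H7Tw
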