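import Mathlib
import Cfsg.Agent.LibH7TwE

/-! `n_3 ≠ 22`: the case `|P| = 3`: conclusion. -/

set_option autoImplicit false

namespace CfsgLib.H7Tw

open Subgroup MulAction CfsgLib.H7 CfsgLib.H7Hall CfsgLib.H7Act CfsgLib.FgSub
open scoped Pointwise Classical

variable {G : Type*} [Group G] [Finite G]

theorem case_five [IsSimpleGroup G] (h22 : Nat.card (Sylow 3 G) = 22) (P : Sylow 3 G)
    (h : Nat.card (phi P).range = 5 ∨ Nat.card (phi P).range = 10 ∨ Nat.card (phi P).range = 35) : False := by
  obtain ⟨C, hC⟩ : ∃ C, C = centralizer ((P : Subgroup G) : Set G) := ⟨_, rfl⟩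
  have hcC' := card_C h22 P
  have hcG := card_G_eq h22 P
  have hcC : Nat.card C = 3 * Nat.card (phi P).range := by rw [← hcC', hC]
  clear hcC'
  obtain ⟨Q⟩ := (inferInstance : Nonempty (Sylow 5 C))
  have hQ5 : Nat.card (Q : Subgroup C) = 5 := by
    rw [Q.card_eq_multiplicity, hcC]
    rcases h with h | h | h <;> rw [h]
    · rw [show 3 * 5 = 15 by norm_num, show (15 : ℕ).factorization 5 = 1 by
        rw [show (15 : ℕ) = 3 * 5 by norm_num, Nat.factorization_mul (by norm_num) (by norm_num)]
        simp only [Finsupp.add_apply]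
        rw [Nat.factorization_eq_zero_of_not_dvd (by norm_num), (by norm_num : Nat.Prime 5).factorization]
        simp]
      norm_num
    · rw [show (3 * 10 : ℕ).factorization 5 = 1 by
        rw [show (3 * 10 : ℕ) = 6 * 5 by norm_num, Nat.factorization_mul (by norm_num) (by norm_num)]
        simp only [Finsupp.add_apply]
        rw [Nat.factorization_eq_zero_of_not_dvd (by norm_num), (by norm_num : Nat.Prime 5).factorization]
        simp]
      norm_num
    · rw [show (3 * 35 : ℕ).factorization 5 = 1 by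
        rw [show (3 * 35 : ℕ) = 21 * 5 by norm_num, Nat.factorization_mul (by norm_num) (by norm_num)]
        simp only [Finsupp.add_apply]
        rw [Nat.factorization_eq_zero_of_not_dvd (by norm_num), (by norm_num : Nat.Prime 5).factorization]
        simp]
      norm_num
  have hPN : (P : Subgroup G).subgroupOf C ≤ normalizer ((Q : Subgroup C) : Set C) := by
    intro x hx
    rw [mem_subgroupOf] at hx
    rw [mem_normalizer_iff]
    intro y
    have h1 : x * y = y * x := by
      apply Subtype.ext
      have hy : (y : G) ∈ centralizer ((P : Subgroup G) : Set G) := by rw [← hC]; exact y.2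
      exact (mem_centralizer_iff.mp hy) x hx
    rw [h1, mul_inv_cancel_right]
  have h3 : 3 ∣ Nat.card (normalizer ((Q : Subgroup C) : Set C)) := by
    have h1 : Nat.card ((P : Subgroup G).subgroupOf C) = 3 := by
      rw [Nat.card_congr (Subgroup.subgroupOfEquivOfLe (by rw [hC]; exact le_cent h22 P)).toEquiv, card_three h22 P]
    rw [← h1]
    exact card_dvd_of_le hPN
  have h5 : 5 ∣ Nat.card (normalizer ((Q : Subgroup C) : Set C)) := by
    have := card_dvd_of_le (le_normalizer (H := (Q : Subgroup C)))
    rwa [hQ5] at this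
  have h15 : 15 ∣ Nat.card (normalizer ((Q : Subgroup C) : Set C)) :=
    Nat.Coprime.mul_dvd_of_dvd_of_dvd (by norm_num : Nat.Coprime 3 5) h3 h5
  obtain ⟨k, hk⟩ := h15
  have hn := Q.card_eq_index_normalizer
  have hidx := Subgroup.card_mul_index (normalizer ((Q : Subgroup C) : Set C))
  have hn' : Nat.card (Sylow 5 C) = (normalizer ((Q : Subgroup C) : Set C)).index := hn
  rw [← hn', hcC, hk] at hidx
  have hmod : Nat.card (Sylow 5 C) % 5 = 1 := card_sylow_modEq_one 5 C
  have hn1 : Nat.card (Sylow 5 C) = 1 := by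
    generalize Nat.card (Sylow 5 C) = n at *
    have hk0 : 0 < k := by
      rcases Nat.eq_zero_or_pos k with rfl | h0
      · rcases h with h | h | h <;> omega
      · exact h0
    have hle : n ≤ 7 := by
      have h1 : 15 * n ≤ 15 * k * n := Nat.mul_le_mul_right n (by omega)
      rcases h with h | h | h <;> omega
    have hn16 : n = 1 ∨ n = 6 := by omega
    rcases hn16 with rfl | rfl
    · rfl
    · exfalso
      rcases h with h | h | h <;> omega
  have huniq : ∀ Q' : Sylow 5 C, Q' = Q := by
    intro Q'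
    have := Finite.card_le_one_iff_subsingleton.mp hn1.le
    exact Subsingleton.elim _ _
  set Q' := (Q : Subgroup C).map C.subtype with hQ'
  have hQ'5 : Nat.card Q' = 5 := by
    rw [hQ', card_map_of_injective C.subtype_injective, hQ5]
  have hQ'C : Q' ≤ C := by
    rintro _ ⟨x, -, rfl⟩
    exact x.2
  have hst : stabilizer G P ≤ normalizer (Q' : Set G) := by
    intro g hg
    rw [mem_normalizer_iff_cj]
    have hgP : cj g (P : Subgroup G) = P := congrArg (fun Q : Sylow 3 G => (Q : Subgroup G)) hg
    have h1 : cj g Q' ≤ C := by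
      rintro _ ⟨x, hx, rfl⟩
      change g * x * g⁻¹ ∈ C
      rw [hC, mem_centralizer_iff]
      intro y hy
      have hy' : g⁻¹ * y * g ∈ (P : Subgroup G) := by
        rw [← mem_cj, hgP]; exact hy
      have hxC : x ∈ centralizer ((P : Subgroup G) : Set G) := by rw [← hC]; exact hQ'C hx
      have h2 := (mem_centralizer_iff.mp hxC) _ hy'
      calc y * (g * x * g⁻¹) = g * ((g⁻¹ * y * g) * x) * g⁻¹ := by group
        _ = g * x * g⁻¹ * y := by rw [h2]; group
    obtain ⟨Q2, hQ2⟩ := CfsgLib.Coprime.exists_sylow_of_card h1 Q (by rw [card_cj, hQ'5, hQ5])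
    rw [huniq Q2] at hQ2
    exact hQ2.symm
  rcases stab_maximal h22 P hst with h1 | h1
  · -- index 22
    have hi : (normalizer (Q' : Set G)).index = 22 := by
      rw [h1, Sylow.stabilizer_eq_normalizer P, ← h22]
      exact (P.card_eq_index_normalizer).symm
    have hcard : Nat.card Q' = 5 ^ (Nat.card G).factorization 5 := by
      rw [hQ'5, hcG]
      rcases h with h | h | h <;> rw [h]
      · rw [show (132 * 5 : ℕ).factorization 5 = 1 by
          rw [Nat.factorization_mul (by norm_num) (by norm_num)]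
          simp only [Finsupp.add_apply]
          rw [Nat.factorization_eq_zero_of_not_dvd (by norm_num), (by norm_num : Nat.Prime 5).factorization]
          simp]
        norm_num
      · rw [show (132 * 10 : ℕ).factorization 5 = 1 by
          rw [show (132 * 10 : ℕ) = 264 * 5 by norm_num, Nat.factorization_mul (by norm_num) (by norm_num)]
          simp only [Finsupp.add_apply]
          rw [Nat.factorization_eq_zero_of_not_dvd (by norm_num), (by norm_num : Nat.Prime 5).factorization]
          simp]
        norm_num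
      · rw [show (132 * 35 : ℕ).factorization 5 = 1 by
          rw [show (132 * 35 : ℕ) = 924 * 5 by norm_num, Nat.factorization_mul (by norm_num) (by norm_num)]
          simp only [Finsupp.add_apply]
          rw [Nat.factorization_eq_zero_of_not_dvd (by norm_num), (by norm_num : Nat.Prime 5).factorization]
          simp]
        norm_num
    have h2 := (Sylow.ofCard Q' hcard).card_eq_index_normalizer
    have h3 : Nat.card (Sylow 5 G) = (normalizer (Q' : Set G)).index := h2
    have h4 : Nat.card (Sylow 5 G) % 5 = 1 := card_sylow_modEq_one 5 G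
    rw [h3, hi] at h4
    omega
  · have hn : Q'.Normal := normalizer_eq_top_iff.mp h1
    rcases hn.eq_bot_or_eq_top with h2 | h2
    · rw [h2, Subgroup.card_bot] at hQ'5
      omega
    · rw [h2, Subgroup.card_top, hcG] at hQ'5
      omega

theorem case_swap {α : Type*} [Finite α] (h7 : Nat.card α = 7) (D : Subgroup (Equiv.Perm α))
    (h16 : 16 ∣ Nat.card D) (hd7 : 7 ∣ Nat.card D) : Nat.card D = 5040 := by
  letI : Fintype α := Fintype.ofFinite α
  have hF : Fintype.card α = 7 := by rw [← Nat.card_eq_fintype_card]; exact h7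
  have hS : Nat.card (Equiv.Perm α) = 5040 := by
    rw [Nat.card_perm, h7]; rfl
  haveI : Fact (Nat.Prime 2) := ⟨Nat.prime_two⟩
  obtain ⟨T⟩ := (inferInstance : Nonempty (Sylow 2 D))
  have hfac : (5040 : ℕ).factorization 2 = 4 := by
    rw [show (5040 : ℕ) = 2 ^ 4 * 315 by norm_num, Nat.factorization_mul (by norm_num) (by norm_num)]
    simp only [Finsupp.add_apply]
    rw [Nat.factorization_eq_zero_of_not_dvd (by norm_num : ¬ 2 ∣ 315), Nat.prime_two.factorization_pow]
    simp
  have hT : Nat.card (T : Subgroup D) = 16 := by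
    rw [T.card_eq_multiplicity]
    have h1 : 4 ≤ (Nat.card D).factorization 2 :=
      (Nat.prime_two.pow_dvd_iff_le_factorization Nat.card_pos.ne').mp
        (by rw [show (2 : ℕ) ^ 4 = 16 by norm_num]; exact h16)
    have h2 : (Nat.card D).factorization 2 ≤ (5040 : ℕ).factorization 2 := by
      have h3 : Nat.card D ∣ 5040 := by rw [← hS]; exact Subgroup.card_subgroup_dvd_card D
      exact (Nat.factorization_le_iff_dvd Nat.card_pos.ne' (by norm_num)).mpr h3 2
    rw [hfac] at h2
    have h3 : (Nat.card D).factorization 2 = 4 := by omega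
    rw [h3]; norm_num
  have hT' : Nat.card ((T : Subgroup D).map D.subtype) = 2 ^ (Nat.card (Equiv.Perm α)).factorization 2 := by
    rw [card_map_of_injective D.subtype_injective, hT, hS, hfac]; norm_num
  obtain ⟨a, b, hab⟩ : ∃ a b : α, a ≠ b := by
    have : 1 < Fintype.card α := by rw [hF]; norm_num
    exact Fintype.exists_pair_of_one_lt_card this
  set τ : Equiv.Perm α := Equiv.swap a b with hτ
  have hτ2 : IsPGroup 2 (zpowers τ) := by
    rw [IsPGroup.iff_card]
    refine ⟨1, ?_⟩
    rw [Nat.card_zpowers, pow_one]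
    exact orderOf_eq_prime (by rw [pow_two, hτ, Equiv.swap_mul_self]) (by
      intro h
      apply hab
      have := congrArg (fun f : Equiv.Perm α => f a) h
      simpa [hτ] using this.symm)
  obtain ⟨S0, hS0⟩ := hτ2.exists_le_sylow
  obtain ⟨g, hg⟩ := MulAction.exists_smul_eq (Equiv.Perm α) S0 (Sylow.ofCard _ hT')
  have hmem : g * τ * g⁻¹ ∈ D := by
    have h1 : g * τ * g⁻¹ ∈ cj g (S0 : Subgroup (Equiv.Perm α)) := conj_mem_cj (hS0 (mem_zpowers τ))
    have h2 : cj g (S0 : Subgroup (Equiv.Perm α)) = (T : Subgroup D).map D.subtype :=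
      congrArg (fun Q : Sylow 2 (Equiv.Perm α) => (Q : Subgroup (Equiv.Perm α))) hg
    rw [h2] at h1
    obtain ⟨x, -, hx⟩ := h1
    rw [← hx]; exact x.2
  have hsw : (g * τ * g⁻¹).IsSwap := by
    refine ⟨g a, g b, fun h => hab (g.injective h), ?_⟩
    rw [hτ, Equiv.swap_apply_apply]
  have htop := Equiv.Perm.subgroup_eq_top_of_swap_mem (H := D) (by rw [hF]; norm_num)
    (by rw [hF, ← Nat.card_eq_fintype_card]; exact hd7) hmem hsw
  rw [htop, Subgroup.card_top, hS]

instance fact7 : Fact (Nat.Prime 7) := ⟨by norm_num⟩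

theorem case_280 {α : Type*} [Finite α] (hα7 : Nat.card α = 7) (D : Subgroup (Equiv.Perm α))
    (hD : Nat.card D = 280) : False := by
  letI : Fintype α := Fintype.ofFinite α
  have hF : Fintype.card α = 7 := by rw [← Nat.card_eq_fintype_card]; exact hα7
  obtain ⟨Q⟩ := (inferInstance : Nonempty (Sylow 7 D))
  have hQ : Nat.card (Q : Subgroup D) = 7 := by
    rw [Q.card_eq_multiplicity, hD]
    rw [show (280 : ℕ).factorization 7 = 1 by
        rw [show (280 : ℕ) = 40 * 7 by norm_num, Nat.factorization_mul (by norm_num) (by norm_num)]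
        simp only [Finsupp.add_apply]
        rw [Nat.factorization_eq_zero_of_not_dvd (by norm_num), (by norm_num : Nat.Prime 7).factorization]
        simp]
    norm_num
  set N := normalizer ((Q : Subgroup D) : Set D) with hN
  have h1 : Nat.card (Sylow 7 D) = N.index := Q.card_eq_index_normalizer
  have h2 := Subgroup.card_mul_index N
  rw [← h1, hD] at h2
  have h3 : Nat.card (Sylow 7 D) % 7 = 1 := card_sylow_modEq_one 7 D
  have h4 : 7 ∣ Nat.card N := by
    have := card_dvd_of_le (le_normalizer (H := (Q : Subgroup D)))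
    rwa [hQ] at this
  obtain ⟨k, hk⟩ := h4
  have h5 : 5 ∣ Nat.card N := by
    rw [hk] at h2 ⊢
    generalize Nat.card (Sylow 7 D) = n at *
    have h6 : k * n = 40 := by
      have : 7 * (k * n) = 7 * 40 := by rw [← mul_assoc, h2]
      omega
    have h7 : n ∣ 40 := ⟨k, by rw [← h6, mul_comm]⟩
    have h8 : n = 1 ∨ n = 8 := by
      have h9 := Nat.le_of_dvd (by norm_num) h7
      interval_cases n <;> first | omega | (exfalso; revert h7; decide)
    rcases h8 with rfl | rfl <;> omega
  haveI : IsCyclic (Q : Subgroup D) := isCyclic_of_prime_card (p := 7) hQ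
  have h6 := relIndex_centralizer_dvd_of_cyclic (Q : Subgroup D)
  rw [hQ, Nat.totient_prime (by norm_num)] at h6
  have h7 := card_mul_relIndex (centralizer_le_normalizer ((Q : Subgroup D) : Set D))
  have h8 : 5 ∣ Nat.card (centralizer ((Q : Subgroup D) : Set D)) := by
    rw [← hN] at h7
    rw [← h7] at h5
    refine (Nat.Coprime.dvd_mul_right ?_).1 h5
    exact Nat.Coprime.coprime_dvd_right h6 (by norm_num)
  obtain ⟨⟨x, hxC⟩, hx⟩ := exists_prime_orderOf_dvd_card' 5 h8
  rw [Subgroup.orderOf_mk] at hx
  obtain ⟨g, hg⟩ := exists_prime_orderOf_dvd_card' (G := (Q : Subgroup D)) 7 (by rw [hQ])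
  have hg7 : orderOf ((g : D) : Equiv.Perm α) = 7 := by
    rw [Subgroup.orderOf_coe, Subgroup.orderOf_coe]; exact hg
  have hx5 : orderOf (x : Equiv.Perm α) = 5 := by
    rw [Subgroup.orderOf_coe]; exact hx
  have hcomm : (x : Equiv.Perm α) * ((g : D) : Equiv.Perm α) = ((g : D) : Equiv.Perm α) * x := by
    have := (mem_centralizer_iff.mp hxC) g g.2
    exact congrArg Subtype.val this.symm
  -- x has a fixed point
  have hPz : IsPGroup 5 (zpowers (x : Equiv.Perm α)) := by
    rw [IsPGroup.iff_card]
    exact ⟨1, by rw [Nat.card_zpowers, hx5]; norm_num⟩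
  have hmod := card_modEq_fixed (p := 5) (zpowers (x : Equiv.Perm α)) hPz (Set.univ : Set α)
    (fun _ _ _ _ => Set.mem_univ _)
  have hne : Nonempty {ω : α | ω ∈ (Set.univ : Set α) ∧ ∀ y ∈ zpowers (x : Equiv.Perm α), y • ω = ω} := by
    by_contra hcon
    rw [not_nonempty_iff] at hcon
    have h0 : Nat.card {ω : α | ω ∈ (Set.univ : Set α) ∧ ∀ y ∈ zpowers (x : Equiv.Perm α), y • ω = ω} = 0 :=
      Nat.card_of_isEmpty
    rw [h0, Nat.card_univ, hα7] at hmod
    revert hmod
    decide
  obtain ⟨a, -, ha⟩ := hne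
  have hxa : (x : Equiv.Perm α) a = a := ha _ (mem_zpowers _)
  have hcyc : ((g : D) : Equiv.Perm α).IsCycle :=
    Equiv.Perm.isCycle_of_prime_order'' (by rw [hF]; norm_num) (by rw [hg7, hF])
  have hsupp : ((g : D) : Equiv.Perm α).support = Finset.univ :=
    Finset.eq_univ_of_card _ (hcyc.orderOf.symm.trans (by rw [hg7, hF]))
  have hx1 : (x : Equiv.Perm α) = 1 := by
    ext b
    have ha' : ((g : D) : Equiv.Perm α) a ≠ a := by
      rw [← Equiv.Perm.mem_support, hsupp]; exact Finset.mem_univ _
    have hb' : ((g : D) : Equiv.Perm α) b ≠ b := by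
      rw [← Equiv.Perm.mem_support, hsupp]; exact Finset.mem_univ _
    obtain ⟨i, hi⟩ := hcyc.exists_zpow_eq ha' hb'
    have hc : Commute (x : Equiv.Perm α) ((g : D) : Equiv.Perm α) := hcomm
    have h9 := congrArg (fun f : Equiv.Perm α => f a) (hc.zpow_right i).eq
    simp only [Equiv.Perm.coe_mul, Function.comp_apply] at h9
    rw [hi, hxa, hi] at h9
    rw [h9]; rfl
  rw [hx1, orderOf_one] at hx5
  omega

theorem case_two [IsSimpleGroup G] (h22 : Nat.card (Sylow 3 G) = 22) (P : Sylow 3 G) {X : Sylow 11 G}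
    (hctx : XCtx (X : Subgroup G)) (he : XOut G X 2) (hm : Nat.card (phi P).range = 2) : False := by
  obtain ⟨s, hsN, hs2, hs1, hinv, -, -⟩ := exists_s h22 hctx he (dvd_refl 2)
  have h12 : Nat.card (Sylow 11 G) = 12 := by
    have h1 := he.cardG
    rw [card_G_eq h22 P, hm] at h1
    omega
  have hss : s * s = 1 := by rw [← pow_two]; exact hs2
  have hsinv : s⁻¹ = s := inv_eq_of_mul_eq_one_left hss
  have hsX : s • X = X := by
    rw [Sylow.smul_eq_iff_mem_normalizer]; exact hsN
  -- X is free on the others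
  have hfree : ∀ Y : Sylow 11 G, Y ≠ X → ∀ x ∈ (X : Subgroup G), x • Y = Y → x = 1 := by
    intro Y hY x hx hxY
    by_contra hne
    apply hY
    have h5 : orderOf (⟨x, hx⟩ : (X : Subgroup G)) ∣ Nat.card (X : Subgroup G) := orderOf_dvd_natCard _
    rw [hctx.card, Subgroup.orderOf_mk] at h5
    have h6 : orderOf x = 11 := by
      rcases (Nat.dvd_prime (by norm_num)).1 h5 with h6 | h6
      · exact absurd (orderOf_eq_one_iff.mp h6) hne
      · exact h6
    have hz : zpowers x = (X : Subgroup G) := by
      apply eq_of_le_of_card_ge (by rw [zpowers_le]; exact hx)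
      rw [hctx.card, Nat.card_zpowers, h6]
    have h7 : (X : Subgroup G) ≤ Y := by
      apply le_of_le_normalizer_sylow X.isPGroup' Y
      intro y hy
      have : zpowers x ≤ stabilizer G Y := by rw [zpowers_le]; exact hxY
      rw [← hz] at hy
      exact this hy
    exact Sylow.ext (X.is_maximal' Y.isPGroup' h7)
  have horb : ∀ Y : Sylow 11 G, Y ≠ X → orbit (X : Subgroup G) Y = {X}ᶜ := by
    intro Y hY
    have h1 : orbit (X : Subgroup G) Y ⊆ {X}ᶜ := by
      rintro _ ⟨x, rfl⟩ h2
      rw [Set.mem_singleton_iff] at h2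
      apply hY
      have h3 : (x : G) • Y = X := h2
      have h4 : (x : G)⁻¹ • X = X := by
        rw [Sylow.smul_eq_iff_mem_normalizer]; exact le_normalizer (Subgroup.inv_mem _ x.2)
      rw [← h4, eq_inv_smul_iff]; exact h3
    apply Set.eq_of_subset_of_ncard_le h1
    have h2 : (orbit (X : Subgroup G) Y).ncard = 11 := by
      rw [← MulAction.index_stabilizer]
      have : stabilizer (X : Subgroup G) Y = ⊥ := by
        rw [eq_bot_iff]
        intro x hx
        rw [mem_stabilizer_iff] at hx
        rw [mem_bot]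
        exact Subtype.ext (hfree Y hY x x.2 hx)
      rw [this, index_bot, hctx.card]
    rw [h2, Set.ncard_compl, h12, Set.ncard_singleton]
  -- fixed points of s
  obtain ⟨Y, hYX, hsY⟩ := exists_fixed_of_odd (Ω := Sylow 11 G) hs2 ({X}ᶜ : Set (Sylow 11 G)) (by
    intro Y hY h1
    apply hY
    rw [Set.mem_singleton_iff] at h1 ⊢
    rw [← hsX] at h1
    exact smul_left_cancel s h1) (by
    rw [Nat.card_coe_set_eq, Set.ncard_compl, h12, Set.ncard_singleton]; decide)
  have hYX' : Y ≠ X := hYX
  have hfix : ∀ Z : Sylow 11 G, s • Z = Z → Z = X ∨ Z = Y := by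
    intro Z hZ
    by_cases hZX : Z = X
    · exact Or.inl hZX
    · right
      have h1 : Z ∈ orbit (X : Subgroup G) Y := by
        rw [horb Y hYX']; exact hZX
      obtain ⟨⟨x, hx⟩, hxZ⟩ := h1
      have hxZ' : x • Y = Z := hxZ
      have e1 : x⁻¹ • Y = x • Y := by
        calc x⁻¹ • Y = (s * x * s⁻¹) • Y := by rw [hinv x hx]
          _ = s • x • (s⁻¹ • Y) := by rw [mul_smul, mul_smul]
          _ = s • x • Y := by rw [hsinv, hsY]
          _ = x • Y := by rw [hxZ', hZ]
      have e2 : (x * x) • Y = Y := by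
        rw [mul_smul, ← e1, smul_inv_smul]
      have e3 := hfree Y hYX' (x * x) (mul_mem hx hx) e2
      rw [← pow_two] at e3
      rw [← hxZ', hctx.sq hx e3, one_smul]
  letI : Fintype (Sylow 11 G) := Fintype.ofFinite _
  have h1 := sign_trivial h22 (Ω := Sylow 11 G) s
  have h2 : (MulAction.toPermHom G (Sylow 11 G) s) ^ 2 = 1 := by
    rw [← map_pow, hs2, map_one]
  rw [Equiv.Perm.sign_of_pow_two_eq_one h2] at h1
  have h3 : Fintype.card (Function.fixedPoints ⇑(MulAction.toPermHom G (Sylow 11 G) s)) = 2 := by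
    rw [Fintype.card_subtype, ← Finset.card_pair (fun h => hYX' h.symm : X ≠ Y)]
    congr 1
    ext Z
    rw [Finset.mem_filter, Finset.mem_insert, Finset.mem_singleton]
    constructor
    · rintro ⟨-, h⟩
      exact hfix Z h
    · rintro (h | h)
      · rw [h]; exact ⟨Finset.mem_univ _, hsX⟩
      · rw [h]; exact ⟨Finset.mem_univ _, hsY⟩
  rw [h3, ← Nat.card_eq_fintype_card, h12] at h1
  revert h1
  decide

theorem simple_false [IsSimpleGroup G] (h22 : Nat.card (Sylow 3 G) = 22) : False := by
  obtain ⟨P⟩ := (inferInstance : Nonempty (Sylow 3 G))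
  obtain ⟨X⟩ := (inferInstance : Nonempty (Sylow 11 G))
  obtain ⟨hctx, e, he, h⟩ := cases_m h22 P X
  rcases h with ⟨h, rfl⟩ | h | h | h | h | h | h
  · exact case_two h22 P hctx he h
  · exact case_five h22 P (Or.inl h)
  · exact case_five h22 P (Or.inr (Or.inl h))
  · exact case_five h22 P (Or.inr (Or.inr h))
  · have := case_swap (card_Orb h22 P) (phi P).range (by rw [h]; decide) (by rw [h]; decide)
    omega
  · have := case_swap (card_Orb h22 P) (phi P).range (by rw [h]; decide) (by rw [h]; decide)
    omega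
  · exact case_280 (card_Orb h22 P) (phi P).range h

universe u in
theorem main : ∀ (n : ℕ) (G : Type u) [Group G] [Finite G], Nat.card G = n → Nat.card (Sylow 3 G) ≠ 22 := by
  intro n
  induction n using Nat.strong_induction_on with
  | _ n ih =>
    intro G _ _ hn h22
    haveI := simple_of_minimal (fun H _ _ hH => ih (Nat.card H) (by rw [← hn]; exact hH) H rfl) h22
    exact simple_false h22

end CfsgLib.H7Tw
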