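import Mathlib
import Cfsg.Agent.EqBase
import Cfsg.Agent.LibExtraH28

set_option autoImplicit false

/-! Elementary abelian 2-groups and their automorphisms (helper28). -/

namespace CfsgLib.Hol28

theorem z2c : ∀ a : ZMod 2, a = 0 ∨ a = 1 := by decide

/-- separation by homomorphisms -/
theorem sep {U : Type*} [CommGroup U] (h2 : ∀ u : U, u * u = 1) (N : Subgroup U) {x : U} (hx : x ∉ N) (c : U) :
    ∃ f : U →* U, (∀ u, f u = 1 ∨ f u = c) ∧ (∀ y ∈ N, f y = 1) ∧ f x = c := by
  haveI : Fact (Nat.Prime 2) := ⟨Nat.prime_two⟩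
  have h0 : ∀ x : Additive U, 2 • x = 0 := fun x => congrArg Additive.ofMul (by
    have := h2 (Additive.toMul x)
    rw [← pow_two] at this
    exact this)
  letI inst : Module (ZMod 2) (Additive U) := AddCommGroup.zmodModule h0
  let N' : Submodule (ZMod 2) (Additive U) := AddSubgroup.toZModSubmodule 2 (Subgroup.toAddSubgroup N)
  have hx' : (Additive.ofMul x) ∉ N' := hx
  obtain ⟨f, hf1, hf2⟩ := Submodule.exists_le_ker_of_notMem hx'
  let g : Additive U →ₗ[ZMod 2] Additive U := f.smulRight (Additive.ofMul c)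
  have hz := z2c
  refine ⟨MonoidHom.toAdditive.symm g.toAddMonoidHom, ?_, ?_, ?_⟩
  · intro u
    rcases hz (f (Additive.ofMul u)) with h | h
    · left
      show Additive.toMul (f (Additive.ofMul u) • Additive.ofMul c) = 1
      rw [h, zero_smul]; rfl
    · right
      show Additive.toMul (f (Additive.ofMul u) • Additive.ofMul c) = c
      rw [h, one_smul]; rfl
  · intro y hy
    have h : f (Additive.ofMul y) = 0 := hf2 (show Additive.ofMul y ∈ N' from hy)
    show Additive.toMul (f (Additive.ofMul y) • Additive.ofMul c) = 1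
    rw [h, zero_smul]; rfl
  · rcases hz (f (Additive.ofMul x)) with h | h
    · exact absurd h hf1
    · show Additive.toMul (f (Additive.ofMul x) • Additive.ofMul c) = c
      rw [h, one_smul]; rfl

/-- the automorphism group of an elementary abelian group -/
theorem exists_GL_equiv {A : Type*} [CommGroup A] [Finite A] (p e : ℕ) [hp : Fact p.Prime] (hexp : ∀ a : A, a ^ p = 1)
    (hcard : Nat.card A = p ^ e) : Nonempty (MulAut A ≃* GL (Fin e) (ZMod p)) := by
  have h0 : ∀ x : Additive A, p • x = 0 := fun x => congrArg Additive.ofMul (hexp (Additive.toMul x))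
  have inst : Module (ZMod p) (Additive A) := AddCommGroup.zmodModule h0
  have hfin : Finite (Additive A) := inferInstanceAs (Finite A)
  have hMf : Module.Finite (ZMod p) (Additive A) := Module.Finite.of_finite
  have hfr : Module.finrank (ZMod p) (Additive A) = e := by
    have h1 := Module.natCard_eq_pow_finrank (K := ZMod p) (V := Additive A)
    rw [Nat.card_zmod] at h1
    have h2 : Nat.card (Additive A) = p ^ e := hcard
    rw [h2] at h1
    exact (Nat.pow_right_injective hp.out.two_le h1).symm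
  let b : Module.Basis (Fin e) (ZMod p) (Additive A) := Module.finBasisOfFinrankEq _ _ hfr
  let f0 : MulAut A →* Module.End (ZMod p) (Additive A) :=
    { toFun := fun σ => (MonoidHom.toAdditive (σ : A →* A)).toZModLinearMap p
      map_one' := by
        apply LinearMap.ext; intro x; rfl
      map_mul' := by
        intro σ τ
        apply LinearMap.ext; intro x; rfl }
  have hf0 : Function.Injective f0 := by
    intro σ τ h
    ext a
    have h1 := congrArg (fun g : Module.End (ZMod p) (Additive A) => Additive.toMul (g (Additive.ofMul a))) h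
    exact h1
  let T : Module.End (ZMod p) (Additive A) ≃ₐ[ZMod p] Matrix (Fin e) (Fin e) (ZMod p) := LinearMap.toMatrixAlgEquiv b
  let f1 : MulAut A →* Matrix (Fin e) (Fin e) (ZMod p) :=
    (T : Module.End (ZMod p) (Additive A) →* Matrix (Fin e) (Fin e) (ZMod p)).comp f0
  have hinj : Function.Injective f1.toHomUnits := by
    intro σ τ h
    apply hf0
    have h1 := congrArg (fun g : GL (Fin e) (ZMod p) => (g : Matrix (Fin e) (Fin e) (ZMod p))) h
    exact T.injective h1
  have hsurj : Function.Surjective f1.toHomUnits := by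
    intro g
    let F : Module.End (ZMod p) (Additive A) := T.symm (g : Matrix (Fin e) (Fin e) (ZMod p))
    let Fi : Module.End (ZMod p) (Additive A) := T.symm ((g⁻¹ : GL (Fin e) (ZMod p)) : Matrix (Fin e) (Fin e) (ZMod p))
    have h1 : F * Fi = 1 := by
      show T.symm _ * T.symm _ = 1
      rw [← map_mul, Units.mul_inv, map_one]
    have h2 : Fi * F = 1 := by
      show T.symm _ * T.symm _ = 1
      rw [← map_mul, Units.inv_mul, map_one]
    let σ : MulAut A :=
      { toFun := fun a => Additive.toMul (F (Additive.ofMul a))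
        invFun := fun a => Additive.toMul (Fi (Additive.ofMul a))
        left_inv := fun a => congrArg (fun E : Module.End (ZMod p) (Additive A) => Additive.toMul (E (Additive.ofMul a))) h2
        right_inv := fun a => congrArg (fun E : Module.End (ZMod p) (Additive A) => Additive.toMul (E (Additive.ofMul a))) h1
        map_mul' := fun a c => congrArg Additive.toMul (map_add F (Additive.ofMul a) (Additive.ofMul c)) }
    refine ⟨σ, Units.ext ?_⟩
    show T (f0 σ) = g
    have h3 : f0 σ = F := by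
      apply LinearMap.ext; intro x; rfl
    rw [h3]
    exact T.apply_symm_apply _
  exact ⟨MulEquiv.ofBijective _ ⟨hinj, hsurj⟩⟩

/-! ### products of subgroups -/

/-- the product of a subgroup with a normalising one -/
def prodSub {G : Type*} [Group G] (A B : Subgroup G) (hn : ∀ b ∈ B, ∀ a ∈ A, b * a * b⁻¹ ∈ A) : Subgroup G where
  carrier := {x | ∃ a ∈ A, ∃ b ∈ B, x = a * b}
  one_mem' := ⟨1, one_mem _, 1, one_mem _, by rw [mul_one]⟩
  mul_mem' := by
    rintro _ _ ⟨a, ha, b, hb, rfl⟩ ⟨c, hc, d, hd, rfl⟩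
    refine ⟨a * (b * c * b⁻¹), mul_mem ha (hn b hb c hc), b * d, mul_mem hb hd, by group⟩
  inv_mem' := by
    rintro _ ⟨a, ha, b, hb, rfl⟩
    refine ⟨b⁻¹ * a⁻¹ * b, ?_, b⁻¹, inv_mem hb, by group⟩
    have := hn b⁻¹ (inv_mem hb) a⁻¹ (inv_mem ha)
    rwa [inv_inv] at this

theorem mem_prodSub {G : Type*} [Group G] {A B : Subgroup G} {hn : ∀ b ∈ B, ∀ a ∈ A, b * a * b⁻¹ ∈ A} {x : G} :
    x ∈ prodSub A B hn ↔ ∃ a ∈ A, ∃ b ∈ B, x = a * b := Iff.rfl

theorem le_prodSub_left {G : Type*} [Group G] {A B : Subgroup G} {hn : ∀ b ∈ B, ∀ a ∈ A, b * a * b⁻¹ ∈ A} : A ≤ prodSub A B hn :=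
  fun a ha => ⟨a, ha, 1, one_mem _, by rw [mul_one]⟩

theorem le_prodSub_right {G : Type*} [Group G] {A B : Subgroup G} {hn : ∀ b ∈ B, ∀ a ∈ A, b * a * b⁻¹ ∈ A} : B ≤ prodSub A B hn :=
  fun b hb => ⟨1, one_mem _, b, hb, by rw [one_mul]⟩

theorem prodSub_eq_sup {G : Type*} [Group G] {A B : Subgroup G} {hn : ∀ b ∈ B, ∀ a ∈ A, b * a * b⁻¹ ∈ A} :
    prodSub A B hn = A ⊔ B := by
  apply le_antisymm
  · rintro _ ⟨a, ha, b, hb, rfl⟩
    exact mul_mem (Subgroup.mem_sup_left ha) (Subgroup.mem_sup_right hb)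
  · exact sup_le le_prodSub_left le_prodSub_right

theorem card_prodSub {G : Type*} [Group G] {A B : Subgroup G} {hn : ∀ b ∈ B, ∀ a ∈ A, b * a * b⁻¹ ∈ A} (hd : A ⊓ B = ⊥) :
    Nat.card ↥(prodSub A B hn) = Nat.card A * Nat.card B := by
  rw [← Nat.card_prod]
  symm
  refine Nat.card_congr (Equiv.ofBijective (fun x : A × B => (⟨(x.1 : G) * x.2, x.1, x.1.2, x.2, x.2.2, rfl⟩ : ↥(prodSub A B hn))) ⟨?_, ?_⟩)
  · rintro ⟨a, b⟩ ⟨c, d⟩ h
    have h1 : (a : G) * b = c * d := congrArg Subtype.val h
    have h2 : (c : G)⁻¹ * a = d * (b : G)⁻¹ := by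
      rw [inv_mul_eq_iff_eq_mul, ← mul_assoc, ← h1, mul_inv_cancel_right]
    have h3 : (c : G)⁻¹ * a ∈ A ⊓ B := Subgroup.mem_inf.2 ⟨mul_mem (inv_mem c.2) a.2, by rw [h2]; exact mul_mem d.2 (inv_mem b.2)⟩
    rw [hd, Subgroup.mem_bot] at h3
    have h4 : c = a := by
      rw [inv_mul_eq_one] at h3; exact Subtype.ext h3
    rw [h3] at h2
    have h5 : d = b := by
      rw [eq_comm, mul_inv_eq_one] at h2; exact Subtype.ext h2
    rw [h4, h5]
  · rintro ⟨_, a, ha, b, hb, rfl⟩
    exact ⟨(⟨a, ha⟩, ⟨b, hb⟩), rfl⟩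

end CfsgLib.Hol28
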