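import Mathlib
import Cfsg.Agent.EqBase
import Cfsg.Agent.LibHol28

set_option autoImplicit false

/-! The holomorph of an elementary abelian 2-group (helper28). -/

namespace CfsgLib.Hol28

/-- `M` acts on the elementary abelian group `U` as its full automorphism group -/
structure Hol {G : Type*} [Group G] (U M : Subgroup G) : Prop where
  sq : ∀ u ∈ U, u * u = 1
  norm : ∀ m ∈ M, ∀ u ∈ U, m * u * m⁻¹ ∈ U
  disj : U ⊓ M = ⊥
  faith : ∀ m ∈ M, (∀ u ∈ U, m * u * m⁻¹ = u) → m = 1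
  full : ∀ φ : ↥U ≃* ↥U, ∃ m ∈ M, ∀ u : ↥U, ((φ u : ↥U) : G) = m * u * m⁻¹

variable {G : Type*} [Group G] {U M : Subgroup G}

theorem Hol.inv (h : Hol U M) {u : G} (hu : u ∈ U) : u⁻¹ = u := inv_eq_of_mul_eq_one_left (h.sq u hu)

theorem Hol.comm (h : Hol U M) {u v : G} (hu : u ∈ U) (hv : v ∈ U) : u * v = v * u := by
  have h1 := h.inv (mul_mem hu hv)
  rw [mul_inv_rev, h.inv hu, h.inv hv] at h1
  exact h1.symm

/-- separation inside `U` -/
theorem Hol.sep (h : Hol U M) (N : Subgroup ↥U) {x : ↥U} (hx : x ∉ N) (c : ↥U) :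
    ∃ f : ↥U →* ↥U, (∀ u, f u = 1 ∨ f u = c) ∧ (∀ y ∈ N, f y = 1) ∧ f x = c := by
  letI : CommGroup ↥U := { (inferInstance : Group ↥U) with mul_comm := fun a b => Subtype.ext (h.comm a.2 b.2) }
  exact CfsgLib.Hol28.sep (fun u => Subtype.ext (h.sq u u.2)) N hx c

theorem Hol.commU (h : Hol U M) (a b : ↥U) : a * b = b * a := Subtype.ext (h.comm a.2 b.2)

theorem Hol.sqU (h : Hol U M) (a : ↥U) : a * a = 1 := Subtype.ext (h.sq a a.2)

/-- transvections -/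
theorem Hol.tv (h : Hol U M) {c : ↥U} {f : ↥U →* ↥U} (hf : ∀ u, f u = 1 ∨ f u = c) (hc : f c = 1) :
    ∃ m ∈ M, ∀ u : ↥U, m * (u : G) * m⁻¹ = (f u : G) * u := by
  have hff : ∀ u, f (f u) = 1 := by
    intro u
    rcases hf u with h1 | h1
    · rw [h1, map_one]
    · rw [h1, hc]
  have hinv : ∀ u, f (f u * u) * (f u * u) = u := by
    intro u
    rw [map_mul, hff, one_mul, ← mul_assoc, h.sqU, one_mul]
  let φ : ↥U ≃* ↥U :=
    { toFun := fun u => f u * u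
      invFun := fun u => f u * u
      left_inv := hinv
      right_inv := hinv
      map_mul' := fun a b => by
        rw [map_mul]
        calc f a * f b * (a * b) = f a * (f b * a) * b := by group
          _ = f a * (a * f b) * b := by rw [h.commU (f b) a]
          _ = f a * a * (f b * b) := by group }
  obtain ⟨m, hm, hφ⟩ := h.full φ
  exact ⟨m, hm, fun u => (hφ u).symm⟩

/-- transitivity -/
theorem Hol.trans (h : Hol U M) {u v : G} (hu : u ∈ U) (hu1 : u ≠ 1) (hv : v ∈ U) (hv1 : v ≠ 1) : ∃ m ∈ M, m * u * m⁻¹ = v := by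
  by_cases huv : u = v
  · exact ⟨1, one_mem _, by rw [huv]; group⟩
  · let u' : ↥U := ⟨u, hu⟩
    let v' : ↥U := ⟨v, hv⟩
    have hx : u' ∉ Subgroup.zpowers (v' * u') := by
      intro hmem
      obtain ⟨n, hn⟩ := hmem
      have h2 : (v' * u') * (v' * u') = 1 := h.sqU _
      have h3 : (v' * u') ^ n = 1 ∨ (v' * u') ^ n = v' * u' := by
        rcases Int.even_or_odd' n with ⟨k, hk | hk⟩
        · left; rw [hk, zpow_mul, zpow_two, h2, one_zpow]
        · right; rw [hk, zpow_add, zpow_mul, zpow_two, h2, one_zpow, one_mul, zpow_one]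
      rcases h3 with h3 | h3
      · apply hu1
        have : u' = 1 := by rw [← hn, ← h3]
        exact congrArg Subtype.val this
      · apply hv1
        have h4 : v' * u' = u' := by rw [← h3]; exact hn
        have : v' = 1 := by rwa [mul_eq_right] at h4
        exact congrArg Subtype.val this
    obtain ⟨f, hf1, hf2, hf3⟩ := h.sep (Subgroup.zpowers (v' * u')) hx (v' * u')
    obtain ⟨m, hm, hm2⟩ := h.tv hf1 (hf2 _ (Subgroup.mem_zpowers _))
    refine ⟨m, hm, ?_⟩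
    have h5 := hm2 u'
    rw [hf3] at h5
    have h6 : ((v' * u' : ↥U) : G) * (u' : G) = v := by
      show v * u * u = v
      rw [mul_assoc, h.sq u hu, mul_one]
    rw [h6] at h5
    exact h5

section
variable (h : Hol U M) {z : G} (hz : z ∈ U) (hz1 : z ≠ 1)

include h hz hz1 in
theorem fixz {a : G} (ha : ∀ u ∈ U, a * u * a⁻¹ = u ∨ a * u * a⁻¹ = z * u) : a * z * a⁻¹ = z := by
  rcases ha z hz with h1 | h1
  · exact h1
  · exfalso
    rw [h.sq z hz, mul_inv_eq_one, mul_eq_left] at h1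
    exact hz1 h1

/-- the elementary abelian group of transvections with centre `z` -/
def Hol.R (h : Hol U M) {z : G} (hz : z ∈ U) (hz1 : z ≠ 1) : Subgroup G where
  carrier := {m | m ∈ M ∧ ∀ u ∈ U, m * u * m⁻¹ = u ∨ m * u * m⁻¹ = z * u}
  one_mem' := ⟨one_mem _, fun u _ => Or.inl (by group)⟩
  mul_mem' := by
    rintro a b ⟨ha, ha'⟩ ⟨hb, hb'⟩
    have haz := fixz h hz hz1 ha'
    refine ⟨mul_mem ha hb, fun u hu => ?_⟩
    have e : a * b * u * (a * b)⁻¹ = a * (b * u * b⁻¹) * a⁻¹ := by group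
    rw [e]
    rcases hb' u hu with h1 | h1
    · rw [h1]; exact ha' u hu
    · rw [h1]
      have e2 : a * (z * u) * a⁻¹ = (a * z * a⁻¹) * (a * u * a⁻¹) := by group
      rw [e2, haz]
      rcases ha' u hu with h2 | h2
      · right; rw [h2]
      · left; rw [h2, ← mul_assoc, h.sq z hz, one_mul]
  inv_mem' := by
    rintro a ⟨ha, ha'⟩
    refine ⟨inv_mem ha, fun u hu => ?_⟩
    have h1 : a⁻¹ * u * a⁻¹⁻¹ ∈ U := h.norm a⁻¹ (inv_mem ha) u hu
    rcases ha' _ h1 with h2 | h2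
    · left
      rw [← h2]; group
    · right
      have h3 : a * (a⁻¹ * u * a⁻¹⁻¹) * a⁻¹ = u := by group
      rw [h3] at h2
      have h4 : z * u = z * (z * (a⁻¹ * u * a⁻¹⁻¹)) := by rw [← h2]
      rw [← mul_assoc, h.sq z hz, one_mul] at h4
      exact h4.symm

theorem mem_R {m : G} : m ∈ h.R hz hz1 ↔ m ∈ M ∧ ∀ u ∈ U, m * u * m⁻¹ = u ∨ m * u * m⁻¹ = z * u := Iff.rfl

include h hz hz1 in
theorem R_fixz {r : G} (hr : r ∈ h.R hz hz1) : r * z * r⁻¹ = z := fixz h hz hz1 hr.2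

theorem R_norm : ∀ r ∈ h.R hz hz1, ∀ u ∈ U, r * u * r⁻¹ ∈ U := fun r hr u hu => h.norm r hr.1 u hu

theorem U_inf_R : U ⊓ h.R hz hz1 = ⊥ := by
  rw [eq_bot_iff, ← h.disj]
  exact inf_le_inf_left _ (fun m hm => hm.1)

/-- the map to homomorphisms -/
def toHom (r : ↥(h.R hz hz1)) : ↥U →* ↥(Subgroup.zpowers (⟨z, hz⟩ : ↥U)) where
  toFun u := ⟨⟨(r : G) * u * (r : G)⁻¹ * (u : G)⁻¹, mul_mem (h.norm _ r.2.1 u u.2) (inv_mem u.2)⟩, by
    rcases r.2.2 u u.2 with h1 | h1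
    · have : (⟨(r : G) * u * (r : G)⁻¹ * (u : G)⁻¹, mul_mem (h.norm _ r.2.1 u u.2) (inv_mem u.2)⟩ : ↥U) = 1 :=
        Subtype.ext (by show (r : G) * u * (r : G)⁻¹ * (u : G)⁻¹ = 1; rw [h1, mul_inv_cancel])
      rw [this]; exact one_mem _
    · have : (⟨(r : G) * u * (r : G)⁻¹ * (u : G)⁻¹, mul_mem (h.norm _ r.2.1 u u.2) (inv_mem u.2)⟩ : ↥U) = ⟨z, hz⟩ :=
        Subtype.ext (by show (r : G) * u * (r : G)⁻¹ * (u : G)⁻¹ = z; rw [h1, mul_inv_cancel_right])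
      rw [this]; exact Subgroup.mem_zpowers _⟩
  map_one' := by
    apply Subtype.ext
    apply Subtype.ext
    show (r : G) * 1 * (r : G)⁻¹ * (1 : G)⁻¹ = 1
    group
  map_mul' u v := by
    apply Subtype.ext
    apply Subtype.ext
    show (r : G) * ((u : G) * v) * (r : G)⁻¹ * ((u : G) * v)⁻¹ = ((r : G) * u * (r : G)⁻¹ * (u : G)⁻¹) * ((r : G) * v * (r : G)⁻¹ * (v : G)⁻¹)
    have h1 : ((r : G) * v * (r : G)⁻¹) * (u : G)⁻¹ = (u : G)⁻¹ * ((r : G) * v * (r : G)⁻¹) :=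
      h.comm (h.norm _ r.2.1 v v.2) (inv_mem u.2)
    have h2 : (v : G)⁻¹ * (u : G)⁻¹ = (u : G)⁻¹ * (v : G)⁻¹ := h.comm (inv_mem v.2) (inv_mem u.2)
    calc (r : G) * ((u : G) * v) * (r : G)⁻¹ * ((u : G) * v)⁻¹ =
        ((r : G) * u * (r : G)⁻¹) * ((r : G) * v * (r : G)⁻¹) * ((v : G)⁻¹ * (u : G)⁻¹) := by group
      _ = ((r : G) * u * (r : G)⁻¹) * (((r : G) * v * (r : G)⁻¹) * (u : G)⁻¹) * (v : G)⁻¹ := by rw [h2]; group
      _ = _ := by rw [h1]; group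

theorem card_R [Finite G] {n : ℕ} (hc : Nat.card U = 2 ^ (n + 1)) : Nat.card ↥(h.R hz hz1) = 2 ^ n := by
  haveI : Fact (Nat.Prime 2) := ⟨Nat.prime_two⟩
  have hz1' : (⟨z, hz⟩ : ↥U) ≠ 1 := fun h1 => hz1 (congrArg Subtype.val h1)
  have hord : orderOf (⟨z, hz⟩ : ↥U) = 2 := orderOf_eq_prime (by rw [pow_two]; exact h.sqU _) hz1'
  have hcz : Nat.card ↥(Subgroup.zpowers (⟨z, hz⟩ : ↥U)) = 2 := by rw [Nat.card_zpowers, hord]
  haveI hnz : (Subgroup.zpowers (⟨z, hz⟩ : ↥U)).Normal := ⟨fun a ha g => by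
    have : g * a * g⁻¹ = a := by rw [h.commU g a, mul_inv_cancel_right]
    rw [this]; exact ha⟩
  have h1 := CfsgLib.ExtraH28.card_hom_quot (p := 2) (Subgroup.zpowers (⟨z, hz⟩ : ↥U)) (C := ↥(Subgroup.zpowers (⟨z, hz⟩ : ↥U)))
    (fun x => by rw [pow_two, h.sqU]; exact one_mem _) (fun x y => by
      have : x * y * x⁻¹ * y⁻¹ = 1 := by rw [h.commU x y]; group
      rw [this]; exact one_mem _) hcz
  have h2 := Subgroup.card_mul_index (Subgroup.zpowers (⟨z, hz⟩ : ↥U))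
  rw [hcz, hc, pow_succ, mul_comm 2] at h2
  have h3 : (Subgroup.zpowers (⟨z, hz⟩ : ↥U)).index = 2 ^ n := Nat.eq_of_mul_eq_mul_right (by norm_num) h2
  rw [h3] at h1
  rw [← h1]
  refine Nat.card_congr (Equiv.ofBijective (fun r => ⟨toHom h hz hz1 r, ?_⟩) ⟨?_, ?_⟩)
  · intro x hx
    obtain ⟨k, rfl⟩ := hx
    rw [MonoidHom.mem_ker]
    have h4 : toHom h hz hz1 r (⟨z, hz⟩ : ↥U) = 1 := by
      apply Subtype.ext
      apply Subtype.ext
      show (r : G) * z * (r : G)⁻¹ * z⁻¹ = 1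
      rw [R_fixz h hz hz1 r.2, mul_inv_cancel]
    show toHom h hz hz1 r ((⟨z, hz⟩ : ↥U) ^ k) = 1
    rw [map_zpow, h4, one_zpow]
  · intro r s hrs
    have h4 : toHom h hz hz1 r = toHom h hz hz1 s := congrArg Subtype.val hrs
    have h5 : ∀ u ∈ U, (r : G) * u * (r : G)⁻¹ = (s : G) * u * (s : G)⁻¹ := by
      intro u hu
      have h6 := congrArg (fun f : ↥U →* ↥(Subgroup.zpowers (⟨z, hz⟩ : ↥U)) => (((f ⟨u, hu⟩ : ↥(Subgroup.zpowers (⟨z, hz⟩ : ↥U))) : ↥U) : G)) h4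
      have h7 : (r : G) * u * (r : G)⁻¹ * u⁻¹ = (s : G) * u * (s : G)⁻¹ * u⁻¹ := h6
      exact mul_right_cancel h7
    have h6 : (s : G)⁻¹ * r = 1 := by
      apply h.faith _ (mul_mem (inv_mem s.2.1) r.2.1)
      intro u hu
      calc (s : G)⁻¹ * r * u * ((s : G)⁻¹ * r)⁻¹ = (s : G)⁻¹ * ((r : G) * u * (r : G)⁻¹) * s := by group
        _ = (s : G)⁻¹ * ((s : G) * u * (s : G)⁻¹) * s := by rw [h5 u hu]
        _ = u := by group
    rw [inv_mul_eq_one] at h6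
    exact Subtype.ext h6.symm
  · rintro ⟨f, hf⟩
    have hz2 : ∀ y ∈ Subgroup.zpowers (⟨z, hz⟩ : ↥U), y = 1 ∨ y = ⟨z, hz⟩ := by
      rintro _ ⟨k, rfl⟩
      have h2 : (⟨z, hz⟩ : ↥U) * ⟨z, hz⟩ = 1 := h.sqU _
      rcases Int.even_or_odd' k with ⟨j, hj | hj⟩
      · left
        show (⟨z, hz⟩ : ↥U) ^ k = 1
        rw [hj, zpow_mul, zpow_two, h2, one_zpow]
      · right
        show (⟨z, hz⟩ : ↥U) ^ k = _
        rw [hj, zpow_add, zpow_mul, zpow_two, h2, one_zpow, one_mul, zpow_one]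
    obtain ⟨m, hm, hm2⟩ := h.tv (c := ⟨z, hz⟩) (f := (Subgroup.zpowers (⟨z, hz⟩ : ↥U)).subtype.comp f)
      (fun u => hz2 _ (f u).2) (by
        have : f ⟨z, hz⟩ = 1 := hf (Subgroup.mem_zpowers _)
        show ((f ⟨z, hz⟩ : ↥(Subgroup.zpowers (⟨z, hz⟩ : ↥U))) : ↥U) = 1
        rw [this]; rfl)
    have hmR : m ∈ h.R hz hz1 := by
      refine ⟨hm, fun u hu => ?_⟩
      have h4 := hm2 ⟨u, hu⟩
      rcases hz2 _ (f ⟨u, hu⟩).2 with h5 | h5
      · left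
        rw [show ((Subgroup.zpowers (⟨z, hz⟩ : ↥U)).subtype.comp f) ⟨u, hu⟩ = 1 from h5] at h4
        rw [h4]
        show (1 : G) * u = u
        rw [one_mul]
      · right
        rw [show ((Subgroup.zpowers (⟨z, hz⟩ : ↥U)).subtype.comp f) ⟨u, hu⟩ = ⟨z, hz⟩ from h5] at h4
        exact h4
    refine ⟨⟨m, hmR⟩, ?_⟩
    apply Subtype.ext
    apply MonoidHom.ext
    intro u
    apply Subtype.ext
    apply Subtype.ext
    show m * (u : G) * m⁻¹ * (u : G)⁻¹ = _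
    rw [hm2 u, mul_inv_cancel_right]
    rfl

end

end CfsgLib.Hol28
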