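import Mathlib
import Cfsg.Agent.EqBase
import Cfsg.Agent.LibHolB28

set_option autoImplicit false

/-! The extraspecial subgroup (helper28). -/

namespace CfsgLib.Hol28

variable {G : Type*} [Group G] {U M : Subgroup G} (h : Hol U M) {z : G} (hz : z ∈ U) (hz1 : z ≠ 1)

/-- the extraspecial group -/
def Hol.Q (h : Hol U M) {z : G} (hz : z ∈ U) (hz1 : z ≠ 1) : Subgroup G := prodSub U (h.R hz hz1) (R_norm h hz hz1)

theorem mem_Q {x : G} : x ∈ h.Q hz hz1 ↔ ∃ u ∈ U, ∃ r ∈ h.R hz hz1, x = u * r := Iff.rfl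

theorem U_le_Q : U ≤ h.Q hz hz1 := le_prodSub_left

theorem R_le_Q : h.R hz hz1 ≤ h.Q hz hz1 := le_prodSub_right

theorem card_Q [Finite G] {n : ℕ} (hc : Nat.card U = 2 ^ (n + 1)) : Nat.card ↥(h.Q hz hz1) = 2 ^ (2 * n + 1) := by
  rw [Hol.Q, card_prodSub (U_inf_R h hz hz1), hc, card_R h hz hz1 hc, ← pow_add]
  congr 1; ring

/-- `{1, z}` -/
theorem a_comm_z {a x : G} (ha : a = 1 ∨ a = z) (hx : x * z = z * x) : x * a = a * x := by
  rcases ha with rfl | rfl
  · rw [mul_one, one_mul]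
  · exact hx

include h hz hz1 in
theorem R_z {r : G} (hr : r ∈ h.R hz hz1) : r * z = z * r := mul_inv_eq_iff_eq_mul.1 (R_fixz h hz hz1 hr)

theorem Q_z {x : G} (hx : x ∈ h.Q hz hz1) : x * z = z * x := by
  obtain ⟨u, hu, r, hr, rfl⟩ := hx
  rw [mul_assoc, R_z h hz hz1 hr, ← mul_assoc, h.comm hu hz, mul_assoc]

theorem R_act {r u : G} (hr : r ∈ h.R hz hz1) (hu : u ∈ U) : ∃ a, (a = 1 ∨ a = z) ∧ r * u = a * u * r := by
  rcases hr.2 u hu with h1 | h1
  · exact ⟨1, Or.inl rfl, by rw [one_mul]; exact mul_inv_eq_iff_eq_mul.1 h1⟩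
  · exact ⟨z, Or.inr rfl, mul_inv_eq_iff_eq_mul.1 h1⟩

theorem R_comm {r s : G} (hr : r ∈ h.R hz hz1) (hs : s ∈ h.R hz hz1) : r * s = s * r := by
  have h1 : (s * r)⁻¹ * (r * s) = 1 := by
    apply h.faith _ (mul_mem (inv_mem (mul_mem hs.1 hr.1)) (mul_mem hr.1 hs.1))
    intro u hu
    obtain ⟨a, ha, hra⟩ := R_act h hz hz1 hr hu
    obtain ⟨b, hb, hsb⟩ := R_act h hz hz1 hs hu
    have hrb := a_comm_z hb (R_z h hz hz1 hr)
    have hsa := a_comm_z ha (R_z h hz hz1 hs)
    have hab : a * b = b * a := a_comm_z hb (a_comm_z (x := z) ha rfl).symm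
    have e1 : (r * s) * u = b * a * u * (r * s) := by
      calc (r * s) * u = r * (s * u) := by group
        _ = (r * b) * u * s := by rw [hsb]; group
        _ = b * (r * u) * s := by rw [hrb]; group
        _ = b * a * u * (r * s) := by rw [hra]; group
    have e2 : (s * r) * u = a * b * u * (s * r) := by
      calc (s * r) * u = s * (r * u) := by group
        _ = (s * a) * u * r := by rw [hra]; group
        _ = a * (s * u) * r := by rw [hsa]; group
        _ = a * b * u * (s * r) := by rw [hsb]; group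
    have e3 : (r * s) * u * (r * s)⁻¹ = b * a * u := by rw [e1]; group
    have e4 : (s * r) * u * (s * r)⁻¹ = b * a * u := by rw [e2, hab]; group
    calc (s * r)⁻¹ * (r * s) * u * ((s * r)⁻¹ * (r * s))⁻¹ = (s * r)⁻¹ * ((r * s) * u * (r * s)⁻¹) * (s * r) := by group
      _ = (s * r)⁻¹ * ((s * r) * u * (s * r)⁻¹) * (s * r) := by rw [e3, e4]
      _ = u := by group
  exact (inv_mul_eq_one.1 h1).symm

theorem R_sq {r : G} (hr : r ∈ h.R hz hz1) : r * r = 1 := by
  apply h.faith _ (mul_mem hr.1 hr.1)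
  intro u hu
  obtain ⟨a, ha, hra⟩ := R_act h hz hz1 hr hu
  have hrb := a_comm_z ha (R_z h hz hz1 hr)
  have haa : a * a = 1 := by
    rcases ha with rfl | rfl
    · rw [mul_one]
    · exact h.sq _ hz
  have e1 : (r * r) * u = u * (r * r) := by
    calc (r * r) * u = r * (r * u) := by group
      _ = (r * a) * u * r := by rw [hra]; group
      _ = a * (r * u) * r := by rw [hrb]; group
      _ = (a * a) * u * (r * r) := by rw [hra]; group
      _ = u * (r * r) := by rw [haa, one_mul]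
  exact mul_inv_eq_iff_eq_mul.2 e1

theorem zz_of {a b : G} (h : Hol U M) (hz : z ∈ U) (ha : a = 1 ∨ a = z) (hb : b = 1 ∨ b = z) : a * b = 1 ∨ a * b = z := by
  rcases ha with rfl | rfl
  · rw [one_mul]; exact hb
  · rcases hb with rfl | rfl
    · rw [mul_one]; exact Or.inr rfl
    · left; exact h.sq _ hz

theorem inv_of {a : G} (h : Hol U M) (hz : z ∈ U) (ha : a = 1 ∨ a = z) : a⁻¹ = a := by
  rcases ha with rfl | rfl
  · exact inv_one
  · exact h.inv hz

theorem Q_comm {x y : G} (hx : x ∈ h.Q hz hz1) (hy : y ∈ h.Q hz hz1) : x * y * x⁻¹ * y⁻¹ = 1 ∨ x * y * x⁻¹ * y⁻¹ = z := by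
  have hxz := Q_z h hz hz1 hx
  have hyz := Q_z h hz hz1 hy
  obtain ⟨u, hu, r, hr, rfl⟩ := hx
  obtain ⟨v, hv, s, hs, rfl⟩ := hy
  obtain ⟨a, ha, hra⟩ := R_act h hz hz1 hr hv
  obtain ⟨b, hb, hsb⟩ := R_act h hz hz1 hs hu
  have huv := h.comm hu hv
  have hrs := R_comm h hz hz1 hr hs
  have hua := a_comm_z ha (x := u) (h.comm hu hz)
  have hvb := a_comm_z hb (x := v) (h.comm hv hz)
  have hbb : b * b = 1 := by
    rcases hb with rfl | rfl
    · rw [mul_one]
    · exact h.sq _ hz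
  have hab : a * b = b * a := a_comm_z hb (a_comm_z (x := z) ha rfl).symm
  have e1 : (u * r) * (v * s) = a * (u * v) * (r * s) := by
    calc (u * r) * (v * s) = u * (r * v) * s := by group
      _ = (u * a) * v * (r * s) := by rw [hra]; group
      _ = _ := by rw [hua]; group
  have e2 : (v * s) * (u * r) = b * (u * v) * (r * s) := by
    calc (v * s) * (u * r) = v * (s * u) * r := by group
      _ = (v * b) * u * (s * r) := by rw [hsb]; group
      _ = b * (v * u) * (s * r) := by rw [hvb]; group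
      _ = _ := by rw [huv, hrs]
  have e3 : (u * r) * (v * s) = (a * b) * ((v * s) * (u * r)) := by
    rw [e1, e2]
    calc a * (u * v) * (r * s) = a * (b * b) * (u * v) * (r * s) := by rw [hbb, mul_one]
      _ = _ := by group
  have e4 : (u * r) * (v * s) * (u * r)⁻¹ * (v * s)⁻¹ = a * b := by
    rw [e3]; group
  rw [e4]
  exact zz_of h hz ha hb

theorem Q_sq {x : G} (hx : x ∈ h.Q hz hz1) : x * x = 1 ∨ x * x = z := by
  obtain ⟨u, hu, r, hr, rfl⟩ := hx
  obtain ⟨a, ha, hra⟩ := R_act h hz hz1 hr hu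
  have hua := a_comm_z ha (x := u) (h.comm hu hz)
  have e1 : (u * r) * (u * r) = a := by
    calc (u * r) * (u * r) = u * (r * u) * r := by group
      _ = (u * a) * u * (r * r) := by rw [hra]; group
      _ = a * (u * u) * (r * r) := by rw [hua]; group
      _ = a := by rw [h.sq u hu, R_sq h hz hz1 hr, mul_one, mul_one]
  rw [e1]; exact ha

theorem zpow_two_cases {H : Type*} [Group H] {a : H} (h2 : a * a = 1) {y : H} (hy : y ∈ Subgroup.zpowers a) : y = 1 ∨ y = a := by
  obtain ⟨k, rfl⟩ := hy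
  rcases Int.even_or_odd' k with ⟨j, hj | hj⟩
  · left
    show a ^ k = 1
    rw [hj, zpow_mul, zpow_two, h2, one_zpow]
  · right
    show a ^ k = _
    rw [hj, zpow_add, zpow_mul, zpow_two, h2, one_zpow, one_mul, zpow_one]

theorem Q_center {x : G} (hx : x ∈ h.Q hz hz1) (hc : ∀ y ∈ h.Q hz hz1, x * y = y * x) : x = 1 ∨ x = z := by
  obtain ⟨u, hu, r, hr, rfl⟩ := hx
  have hr1 : r = 1 := by
    apply h.faith r hr.1
    intro v hv
    have h1 := hc v (U_le_Q h hz hz1 hv)
    have h2 : u * (r * v) = u * (v * r) := by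
      calc u * (r * v) = u * r * v := by group
        _ = v * (u * r) := h1
        _ = (v * u) * r := by group
        _ = u * (v * r) := by rw [h.comm hv hu]; group
    exact mul_inv_eq_iff_eq_mul.2 (mul_left_cancel h2)
  subst hr1
  rw [mul_one] at hc ⊢
  by_contra hcon
  have hx' : (⟨u, hu⟩ : ↥U) ∉ Subgroup.zpowers (⟨z, hz⟩ : ↥U) := by
    intro h1
    rcases zpow_two_cases (h.sqU _) h1 with h2 | h2
    · exact hcon (Or.inl (congrArg Subtype.val h2))
    · exact hcon (Or.inr (congrArg Subtype.val h2))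
  obtain ⟨f, hf1, hf2, hf3⟩ := h.sep _ hx' (⟨z, hz⟩ : ↥U)
  obtain ⟨m, hm, hm2⟩ := h.tv hf1 (hf2 _ (Subgroup.mem_zpowers _))
  have hmR : m ∈ h.R hz hz1 := by
    refine ⟨hm, fun v hv => ?_⟩
    have h4 := hm2 ⟨v, hv⟩
    rcases hf1 ⟨v, hv⟩ with h5 | h5
    · left; rw [h5] at h4
      rw [h4]
      show (1 : G) * v = v
      rw [one_mul]
    · right; rw [h5] at h4; exact h4
  have h5 := hm2 ⟨u, hu⟩
  rw [hf3] at h5
  have h6 : m * u * m⁻¹ = z * u := h5
  have h7 : m * u * m⁻¹ = u := mul_inv_eq_iff_eq_mul.2 (hc m (R_le_Q h hz hz1 hmR)).symm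
  rw [h7, eq_comm, mul_eq_right] at h6
  exact hz1 h6

theorem Q_extraspecial [Finite G] {n : ℕ} (hn : 1 ≤ n) (hc : Nat.card U = 2 ^ (n + 1)) :
    Cfsg.IsExtraspecial 2 ↥(h.Q hz hz1) ∧ (Subgroup.center ↥(h.Q hz hz1)).map (h.Q hz hz1).subtype = Subgroup.zpowers z := by
  haveI : Fact (Nat.Prime 2) := ⟨Nat.prime_two⟩
  have hzQ : z ∈ h.Q hz hz1 := U_le_Q h hz hz1 hz
  have hzc : (⟨z, hzQ⟩ : ↥(h.Q hz hz1)) ∈ Subgroup.center ↥(h.Q hz hz1) := by
    rw [Subgroup.mem_center_iff]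
    intro g
    exact Subtype.ext (Q_z h hz hz1 g.2)
  have hcen : Subgroup.center ↥(h.Q hz hz1) = Subgroup.zpowers (⟨z, hzQ⟩ : ↥(h.Q hz hz1)) := by
    apply le_antisymm
    · intro x hx
      rw [Subgroup.mem_center_iff] at hx
      rcases Q_center h hz hz1 x.2 (fun y hy => (congrArg Subtype.val (hx ⟨y, hy⟩)).symm) with h1 | h1
      · have : x = 1 := Subtype.ext h1
        rw [this]; exact one_mem _
      · have : x = ⟨z, hzQ⟩ := Subtype.ext h1
        rw [this]; exact Subgroup.mem_zpowers _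
    · rw [Subgroup.zpowers_le]; exact hzc
  have hord : orderOf (⟨z, hzQ⟩ : ↥(h.Q hz hz1)) = 2 := orderOf_eq_prime (by
    rw [pow_two]; exact Subtype.ext (h.sq z hz)) (fun h1 => hz1 (congrArg Subtype.val h1))
  have hmem : ∀ x : ↥(h.Q hz hz1), (x : G) = 1 ∨ (x : G) = z → x ∈ Subgroup.center ↥(h.Q hz hz1) := by
    intro x hx
    rcases hx with h1 | h1
    · have : x = 1 := Subtype.ext h1
      rw [this]; exact one_mem _
    · have : x = ⟨z, hzQ⟩ := Subtype.ext h1
      rw [this]; exact hzc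
  refine ⟨CfsgLib.ExtraH28.isExtraspecial_of ?_ ?_ ?_ ?_ ?_, ?_⟩
  · exact IsPGroup.of_card (card_Q h hz hz1 hc)
  · rw [hcen, Nat.card_zpowers, hord]
  · intro x
    apply hmem
    rw [pow_two]
    exact Q_sq h hz hz1 x.2
  · intro x y
    apply hmem
    exact Q_comm h hz hz1 x.2 y.2
  · -- noncommutativity from the order
    by_contra hcon
    push Not at hcon
    have h1 : Subgroup.center ↥(h.Q hz hz1) = ⊤ := by
      rw [eq_top_iff]
      intro x _
      rw [Subgroup.mem_center_iff]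
      exact fun g => hcon g x
    have h2 : Nat.card ↥(Subgroup.center ↥(h.Q hz hz1)) = 2 := by rw [hcen, Nat.card_zpowers, hord]
    rw [h1, Subgroup.card_top, card_Q h hz hz1 hc] at h2
    have h3 : 2 ^ 1 < 2 ^ (2 * n + 1) := Nat.pow_lt_pow_right (by norm_num) (by omega)
    omega
  · rw [hcen, MonoidHom.map_zpowers]; rfl

end CfsgLib.Hol28
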