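import Mathlib
import Cfsg.Agent.EqBase
import Cfsg.Agent.LibHolC28
import Cfsg.Agent.LibCores

set_option autoImplicit false

/-! The complement and the 2-core (helper28). -/

namespace CfsgLib.Hol28

variable {G : Type*} [Group G] {U M : Subgroup G}

/-- the action -/
def Hol.act (h : Hol U M) : ↥M →* MulAut ↥U where
  toFun m :=
    { toFun := fun u => ⟨(m : G) * u * (m : G)⁻¹, h.norm m m.2 u u.2⟩
      invFun := fun u => ⟨(m : G)⁻¹ * u * (m : G)⁻¹⁻¹, h.norm _ (inv_mem m.2) u u.2⟩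
      left_inv := fun u => Subtype.ext (by show (m : G)⁻¹ * ((m : G) * u * (m : G)⁻¹) * (m : G)⁻¹⁻¹ = u; group)
      right_inv := fun u => Subtype.ext (by show (m : G) * ((m : G)⁻¹ * u * (m : G)⁻¹⁻¹) * (m : G)⁻¹ = u; group)
      map_mul' := fun u v => Subtype.ext (by
        show (m : G) * ((u : G) * v) * (m : G)⁻¹ = ((m : G) * u * (m : G)⁻¹) * ((m : G) * v * (m : G)⁻¹)
        group) }
  map_one' := by
    ext u
    show (1 : G) * u * (1 : G)⁻¹ = u
    group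
  map_mul' a b := by
    ext u
    show ((a : G) * b) * u * ((a : G) * b)⁻¹ = (a : G) * ((b : G) * u * (b : G)⁻¹) * (a : G)⁻¹
    group

theorem Hol.act_apply (h : Hol U M) (m : ↥M) (u : ↥U) : ((h.act m u : ↥U) : G) = (m : G) * u * (m : G)⁻¹ := rfl

theorem Hol.act_bij (h : Hol U M) : Function.Bijective h.act := by
  constructor
  · rw [injective_iff_map_eq_one]
    intro m hm
    apply Subtype.ext
    apply h.faith m m.2
    intro u hu
    have := congrArg (fun φ : MulAut ↥U => ((φ ⟨u, hu⟩ : ↥U) : G)) hm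
    exact this
  · intro φ
    obtain ⟨m, hm, hφ⟩ := h.full φ
    refine ⟨⟨m, hm⟩, ?_⟩
    ext u
    exact (hφ u).symm

theorem Hol.equivAut (h : Hol U M) : Nonempty (↥M ≃* MulAut ↥U) := ⟨MulEquiv.ofBijective h.act h.act_bij⟩

theorem Hol.equivGL [Finite G] (h : Hol U M) {e : ℕ} (hc : Nat.card U = 2 ^ e) : Nonempty (↥M ≃* GL (Fin e) (ZMod 2)) := by
  haveI : Fact (Nat.Prime 2) := ⟨Nat.prime_two⟩
  obtain ⟨e1⟩ := h.equivAut
  letI : CommGroup ↥U := { (inferInstance : Group ↥U) with mul_comm := fun a b => Subtype.ext (h.comm a.2 b.2) }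
  obtain ⟨e2⟩ := exists_GL_equiv (A := ↥U) 2 e (fun a => by rw [pow_two]; exact h.sqU a) hc
  exact ⟨e1.trans e2⟩

/-- a normal 2-subgroup of `M` is trivial -/
theorem Hol.core_trivial [Finite G] (h : Hol U M) {L : Subgroup G} (hLM : L ≤ M) (hL : IsPGroup 2 L)
    (hn : ∀ m ∈ M, ∀ l ∈ L, m * l * m⁻¹ ∈ L) : L = ⊥ := by
  haveI : Fact (Nat.Prime 2) := ⟨Nat.prime_two⟩
  by_cases hU : U = ⊥
  · rw [eq_bot_iff]
    intro l hl
    rw [Subgroup.mem_bot]
    apply h.faith l (hLM hl)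
    intro u hu
    rw [hU, Subgroup.mem_bot] at hu
    rw [hu]; group
  · obtain ⟨u0, hu0, hu01⟩ := (Subgroup.ne_bot_iff_exists_ne_one.1 hU) |> fun ⟨a, ha⟩ => (⟨(a : G), a.2, fun h1 => ha (Subtype.ext h1)⟩ : ∃ u0 ∈ U, u0 ≠ 1)
    have hUp : IsPGroup 2 U := fun u => ⟨1, by rw [pow_one, pow_two]; exact h.sqU u⟩
    haveI : Nontrivial ↥U := ⟨⟨⟨u0, hu0⟩, 1, fun h1 => hu01 (congrArg Subtype.val h1)⟩⟩
    have hdvd : 2 ∣ Nat.card ↥U := by
      obtain ⟨k, hk0, hk⟩ := hUp.nontrivial_iff_card.1 inferInstance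
      rw [hk]; exact dvd_pow_self 2 (by omega)
    let ρ : ↥L →* MulAut ↥U := h.act.comp (Subgroup.inclusion hLM)
    letI : MulAction ↥L ↥U := MulAction.compHom ↥U ρ
    obtain ⟨w, hw, hw1⟩ := hL.exists_fixed_point_of_prime_dvd_card_of_fixed_point ↥U hdvd (a := (1 : ↥U)) (by
      intro l
      exact map_one (ρ l))
    have hw2 : ∀ l ∈ L, l * (w : G) * l⁻¹ = w := fun l hl => congrArg Subtype.val (hw ⟨l, hl⟩)
    rw [eq_bot_iff]
    intro l hl
    rw [Subgroup.mem_bot]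
    apply h.faith l (hLM hl)
    intro u hu
    by_cases hu1 : u = 1
    · rw [hu1]; group
    · obtain ⟨m, hm, hmu⟩ := h.trans w.2 (fun h1 => hw1 (Subtype.ext h1.symm)) hu hu1
      have h2 := hw2 (m⁻¹ * l * m) (by
        have := hn m⁻¹ (inv_mem hm) l hl
        rwa [inv_inv] at this)
      calc l * u * l⁻¹ = l * (m * w * m⁻¹) * l⁻¹ := by rw [hmu]
        _ = m * ((m⁻¹ * l * m) * w * (m⁻¹ * l * m)⁻¹) * m⁻¹ := by group
        _ = u := by rw [h2, hmu]

section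
variable (h : Hol U M) {z : G} (hz : z ∈ U) (hz1 : z ≠ 1)

include h hz in
theorem R_conj {c r : G} (hcz : c * z * c⁻¹ = z) (hc : c ∈ M) (hr : r ∈ h.R hz hz1) : c * r * c⁻¹ ∈ h.R hz hz1 := by
  refine ⟨mul_mem (mul_mem hc hr.1) (inv_mem hc), fun u hu => ?_⟩
  have h1 : c⁻¹ * u * c⁻¹⁻¹ ∈ U := h.norm _ (inv_mem hc) u hu
  rcases hr.2 _ h1 with h2 | h2
  · left
    calc c * r * c⁻¹ * u * (c * r * c⁻¹)⁻¹ = c * (r * (c⁻¹ * u * c⁻¹⁻¹) * r⁻¹) * c⁻¹ := by group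
      _ = u := by rw [h2]; group
  · right
    calc c * r * c⁻¹ * u * (c * r * c⁻¹)⁻¹ = c * (r * (c⁻¹ * u * c⁻¹⁻¹) * r⁻¹) * c⁻¹ := by group
      _ = (c * z * c⁻¹) * u := by rw [h2]; group
      _ = z * u := by rw [hcz]

/-- `W` complement to `z` in `U` -/
structure PiData (h : Hol U M) {z : G} (hz : z ∈ U) (π : ↥U →* ↥U) : Prop where
  v : ∀ u, π u = 1 ∨ π u = ⟨z, hz⟩
  z : π ⟨z, hz⟩ = ⟨z, hz⟩

include hz1 in
theorem exists_pi : ∃ π : ↥U →* ↥U, PiData h hz π := by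
  have hx : (⟨z, hz⟩ : ↥U) ∉ (⊥ : Subgroup ↥U) := by
    rw [Subgroup.mem_bot]
    exact fun h1 => hz1 (congrArg Subtype.val h1)
  obtain ⟨f, hf1, hf2, hf3⟩ := h.sep ⊥ hx ⟨z, hz⟩
  exact ⟨f, hf1, hf3⟩

variable {h hz} {π : ↥U →* ↥U} (hπ : PiData h hz π)

include hπ in
theorem PiData.idem (u : ↥U) : π (π u) = π u := by
  rcases hπ.v u with h1 | h1
  · rw [h1, map_one]
  · rw [h1, hπ.z]

/-- the complement -/
def PiData.K (_hπ : PiData h hz π) : Subgroup G where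
  carrier := {m | ∃ hm : m ∈ M, h.act ⟨m, hm⟩ ⟨z, hz⟩ = ⟨z, hz⟩ ∧ ∀ u, π (h.act ⟨m, hm⟩ u) = π u}
  one_mem' := ⟨one_mem _, by
    have : (⟨1, one_mem _⟩ : ↥M) = 1 := rfl
    rw [this, map_one]; exact ⟨rfl, fun u => rfl⟩⟩
  mul_mem' := by
    rintro a b ⟨ha, ha1, ha2⟩ ⟨hb, hb1, hb2⟩
    refine ⟨mul_mem ha hb, ?_⟩
    have : (⟨a * b, mul_mem ha hb⟩ : ↥M) = ⟨a, ha⟩ * ⟨b, hb⟩ := rfl
    rw [this, map_mul]
    refine ⟨?_, fun u => ?_⟩
    · rw [MulAut.mul_apply, hb1, ha1]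
    · rw [MulAut.mul_apply, ha2, hb2]
  inv_mem' := by
    rintro a ⟨ha, ha1, ha2⟩
    refine ⟨inv_mem ha, ?_⟩
    have : (⟨a⁻¹, inv_mem ha⟩ : ↥M) = (⟨a, ha⟩)⁻¹ := rfl
    rw [this, map_inv]
    refine ⟨?_, fun u => ?_⟩
    · rw [MulAut.inv_apply, MulEquiv.symm_apply_eq, ha1]
    · rw [← ha2, MulAut.apply_inv_self]

/-- the hyperplane -/
def PiData.W (_hπ : PiData h hz π) : Subgroup G := π.ker.map U.subtype

theorem PiData.W_le (hπ : PiData h hz π) : hπ.W ≤ U := by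
  rintro _ ⟨w, -, rfl⟩
  exact w.2

theorem PiData.mem_W (hπ : PiData h hz π) {u : G} (hu : u ∈ U) : u ∈ hπ.W ↔ π ⟨u, hu⟩ = 1 := by
  constructor
  · rintro ⟨w, hw, hwu⟩
    have : w = ⟨u, hu⟩ := Subtype.ext hwu
    rw [← this]; exact hw
  · intro h1
    exact ⟨⟨u, hu⟩, h1, rfl⟩

theorem PiData.K_le (hπ : PiData h hz π) : hπ.K ≤ M := fun _ hm => hm.1

theorem PiData.K_z (hπ : PiData h hz π) {k : G} (hk : k ∈ hπ.K) : k * z * k⁻¹ = z := by
  obtain ⟨hm, h1, -⟩ := hk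
  exact congrArg Subtype.val h1

theorem PiData.dec (hπ : PiData h hz π) (u : ↥U) : ∃ a w : ↥U, (a = 1 ∨ a = ⟨z, hz⟩) ∧ π w = 1 ∧ u = a * w := by
  refine ⟨π u, π u * u, hπ.v u, ?_, ?_⟩
  · rw [map_mul, hπ.idem, h.sqU]
  · rw [← mul_assoc, h.sqU, one_mul]

theorem PiData.hol (hπ : PiData h hz π) : Hol hπ.W hπ.K where
  sq u hu := h.sq u (hπ.W_le hu)
  norm k hk w hw := by
    have hwU := hπ.W_le hw
    have hkM := hπ.K_le hk
    obtain ⟨hm, h1, h2⟩ := hk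
    rw [hπ.mem_W (h.norm k hkM w hwU)]
    have := h2 ⟨w, hwU⟩
    rw [(hπ.mem_W hwU).1 hw] at this
    exact this
  disj := by
    rw [eq_bot_iff, ← h.disj]
    exact inf_le_inf hπ.W_le hπ.K_le
  faith k hk hw := by
    apply h.faith k (hπ.K_le hk)
    intro u hu
    obtain ⟨a, w, ha, hw1, hu2⟩ := hπ.dec ⟨u, hu⟩
    have h3 : u = (a : G) * w := congrArg Subtype.val hu2
    have h4 : k * (a : G) * k⁻¹ = a := by
      rcases ha with rfl | rfl
      · show k * 1 * k⁻¹ = 1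
        group
      · exact hπ.K_z hk
    have h5 : k * (w : G) * k⁻¹ = w := hw w ((hπ.mem_W w.2).2 hw1)
    calc k * u * k⁻¹ = (k * (a : G) * k⁻¹) * (k * (w : G) * k⁻¹) := by rw [h3]; group
      _ = u := by rw [h4, h5, h3]
  full κ := by
    have hval : ∀ u : ↥U, ((π u * u : ↥U) : G) ∈ hπ.W := by
      intro u
      rw [hπ.mem_W (π u * u).2]
      show π (π u * u) = 1
      rw [map_mul, hπ.idem, h.sqU]
    let p : ↥U →* ↥hπ.W :=
      { toFun := fun u => ⟨((π u * u : ↥U) : G), hval u⟩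
        map_one' := Subtype.ext (by
          show ((π 1 * 1 : ↥U) : G) = 1
          rw [map_one, one_mul]; rfl)
        map_mul' := fun a b => Subtype.ext (by
          show ((π (a * b) * (a * b) : ↥U) : G) = ((π a * a : ↥U) : G) * ((π b * b : ↥U) : G)
          have : π (a * b) * (a * b) = (π a * a) * (π b * b) := by
            rw [map_mul]
            calc π a * π b * (a * b) = π a * (π b * a) * b := by group
              _ = π a * (a * π b) * b := by rw [h.commU (π b) a]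
              _ = _ := by group
          rw [this]; rfl) }
    let i : ↥hπ.W →* ↥U := Subgroup.inclusion hπ.W_le
    have hpi : ∀ w : ↥hπ.W, p (i w) = w := by
      intro w
      apply Subtype.ext
      show ((π (i w) * (i w) : ↥U) : G) = w
      have : π (i w) = 1 := (hπ.mem_W (hπ.W_le w.2)).1 w.2
      rw [this, one_mul]; rfl
    have hπi : ∀ w : ↥hπ.W, π (i w) = 1 := fun w => (hπ.mem_W (hπ.W_le w.2)).1 w.2
    have hip : ∀ u : ↥U, i (p u) = π u * u := fun u => rfl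
    let F : (↥hπ.W ≃* ↥hπ.W) → ↥U → ↥U := fun κ u => π u * i (κ (p u))
    have hF : ∀ κ κ' : ↥hπ.W ≃* ↥hπ.W, (∀ w, κ (κ' w) = w) → ∀ u, F κ (F κ' u) = u := by
      intro κ κ' hκ u
      show π (π u * i (κ' (p u))) * i (κ (p (π u * i (κ' (p u))))) = u
      have h1 : π (π u * i (κ' (p u))) = π u := by
        rw [map_mul, hπ.idem, hπi, mul_one]
      have h2 : p (π u) = 1 := by
        apply Subtype.ext
        show ((π (π u) * π u : ↥U) : G) = 1
        rw [hπ.idem, h.sqU]; rfl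
      rw [h1, map_mul p, h2, one_mul, hpi, hκ, hip, ← mul_assoc, h.sqU, one_mul]
    let φ : ↥U ≃* ↥U :=
      { toFun := F κ
        invFun := F κ.symm
        left_inv := hF κ.symm κ (fun w => κ.symm_apply_apply w)
        right_inv := hF κ κ.symm (fun w => κ.apply_symm_apply w)
        map_mul' := fun a b => by
          show π (a * b) * i (κ (p (a * b))) = (π a * i (κ (p a))) * (π b * i (κ (p b)))
          rw [map_mul π, map_mul p, map_mul κ, map_mul i]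
          calc π a * π b * (i (κ (p a)) * i (κ (p b))) = π a * (π b * i (κ (p a))) * i (κ (p b)) := by group
            _ = π a * (i (κ (p a)) * π b) * i (κ (p b)) := by rw [h.commU (π b) (i (κ (p a)))]
            _ = _ := by group }
    obtain ⟨m, hm, hφ⟩ := h.full φ
    have hφ' : ∀ u : ↥U, h.act ⟨m, hm⟩ u = φ u := fun u => Subtype.ext (hφ u).symm
    refine ⟨m, ⟨hm, ?_, ?_⟩, ?_⟩
    · rw [hφ']
      show π ⟨z, hz⟩ * i (κ (p ⟨z, hz⟩)) = ⟨z, hz⟩
      have h1 : p ⟨z, hz⟩ = 1 := by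
        apply Subtype.ext
        show ((π ⟨z, hz⟩ * ⟨z, hz⟩ : ↥U) : G) = 1
        rw [hπ.z, h.sqU]; rfl
      rw [h1, map_one, map_one, mul_one, hπ.z]
    · intro u
      rw [hφ']
      show π (π u * i (κ (p u))) = π u
      rw [map_mul, hπ.idem, hπi, mul_one]
    · intro w
      rw [show ((w : ↥hπ.W) : G) = ((i w : ↥U) : G) from rfl, ← hφ (i w)]
      show ((κ w : ↥hπ.W) : G) = ((π (i w) * i (κ (p (i w))) : ↥U) : G)
      rw [hπi, hpi, one_mul]
      rfl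

theorem PiData.card_W [Finite G] (hπ : PiData h hz π) (hz1 : z ≠ 1) {n : ℕ} (hc : Nat.card U = 2 ^ (n + 1)) : Nat.card ↥hπ.W = 2 ^ n := by
  have h1 : Nat.card ↥hπ.W = Nat.card ↥π.ker := by
    rw [PiData.W]
    exact Nat.card_congr (Subgroup.equivMapOfInjective _ _ U.subtype_injective).toEquiv.symm
  have h2 : π.range = Subgroup.zpowers (⟨z, hz⟩ : ↥U) := by
    apply le_antisymm
    · rintro _ ⟨u, rfl⟩
      rcases hπ.v u with h3 | h3
      · rw [h3]; exact one_mem _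
      · rw [h3]; exact Subgroup.mem_zpowers _
    · rw [Subgroup.zpowers_le]
      exact ⟨⟨z, hz⟩, hπ.z⟩
  have hz1' : (⟨z, hz⟩ : ↥U) ≠ 1 := fun h1 => hz1 (congrArg Subtype.val h1)
  have hord : orderOf (⟨z, hz⟩ : ↥U) = 2 := orderOf_eq_prime (by rw [pow_two]; exact h.sqU _) hz1'
  have h3 := Subgroup.card_mul_index π.ker
  rw [Subgroup.index_ker, h2, Nat.card_zpowers, hord, hc, pow_succ] at h3
  rw [h1]
  exact Nat.eq_of_mul_eq_mul_right (by norm_num) h3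

end

end CfsgLib.Hol28
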