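import Mathlib
import Cfsg.Prelude.Def_MonsterType
import Cfsg.Agent.EqBase
import Cfsg.Agent.LibHolD28
import Cfsg.Agent.LibCores

set_option autoImplicit false

/-! The large extraspecial subgroup (helper28). -/

namespace CfsgLib.Hol28

variable {G : Type*} [Group G] {U M : Subgroup G}

section
variable (h : Hol U M) {z : G} (hz : z ∈ U) (hz1 : z ≠ 1) (hP : ∀ c, c * z = z * c → ∃ u ∈ U, ∃ m ∈ M, c = u * m)

include h hz hP in
theorem cz_dec {c : G} (hc : c * z = z * c) : ∃ u ∈ U, ∃ m ∈ M, m * z * m⁻¹ = z ∧ c = u * m := by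
  obtain ⟨u, hu, m, hm, rfl⟩ := hP c hc
  refine ⟨u, hu, m, hm, ?_, rfl⟩
  have h1 : u * (m * z) = u * (z * m) := by
    calc u * (m * z) = (u * m) * z := by group
      _ = (z * u) * m := by rw [hc]; group
      _ = u * (z * m) := by rw [h.comm hz hu]; group
  exact mul_inv_eq_iff_eq_mul.2 (mul_left_cancel h1)

include h hz hP in
theorem cz_norm {c : G} (hc : c * z = z * c) : ∀ u ∈ U, c * u * c⁻¹ ∈ U := by
  obtain ⟨u, hu, m, hm, -, rfl⟩ := cz_dec h hz hP hc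
  intro v hv
  have : u * m * v * (u * m)⁻¹ = u * (m * v * m⁻¹) * u⁻¹ := by group
  rw [this]
  exact mul_mem (mul_mem hu (h.norm m hm v hv)) (inv_mem hu)

include hP in
theorem Q_conj {c q : G} (hc : c * z = z * c) (hq : q ∈ h.Q hz hz1) : c * q * c⁻¹ ∈ h.Q hz hz1 := by
  obtain ⟨u, hu, m, hm, hmz, rfl⟩ := cz_dec h hz hP hc
  have h1 : m * q * m⁻¹ ∈ h.Q hz hz1 := by
    obtain ⟨v, hv, r, hr, rfl⟩ := hq
    have : m * (v * r) * m⁻¹ = (m * v * m⁻¹) * (m * r * m⁻¹) := by group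
    rw [this]
    exact ⟨_, h.norm m hm v hv, _, R_conj h hz hz1 hmz hm hr, rfl⟩
  have : u * m * q * (u * m)⁻¹ = u * (m * q * m⁻¹) * u⁻¹ := by group
  rw [this]
  exact mul_mem (mul_mem (U_le_Q h hz hz1 hu) h1) (inv_mem (U_le_Q h hz hz1 hu))

variable {h hz} {π : ↥U →* ↥U} (hπ : PiData h hz π)

include hz1 hP hπ in
theorem cz_QK {c : G} (hc : c * z = z * c) : ∃ q ∈ h.Q hz hz1, ∃ k ∈ hπ.K, c = q * k := by
  obtain ⟨u, hu, m, hm, hmz, rfl⟩ := cz_dec h hz hP hc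
  have hmz' : h.act ⟨m, hm⟩ ⟨z, hz⟩ = ⟨z, hz⟩ := Subtype.ext hmz
  let f : ↥U →* ↥U :=
    { toFun := fun u => π (h.act ⟨m, hm⟩ u) * π u
      map_one' := by rw [map_one, map_one, mul_one]
      map_mul' := fun a b => by
        rw [map_mul, map_mul, map_mul]
        calc π (h.act ⟨m, hm⟩ a) * π (h.act ⟨m, hm⟩ b) * (π a * π b) =
            π (h.act ⟨m, hm⟩ a) * (π (h.act ⟨m, hm⟩ b) * π a) * π b := by group
          _ = π (h.act ⟨m, hm⟩ a) * (π a * π (h.act ⟨m, hm⟩ b)) * π b := by rw [h.commU (π (h.act ⟨m, hm⟩ b)) (π a)]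
          _ = _ := by group }
  have hfdef : ∀ u, f u = π (h.act ⟨m, hm⟩ u) * π u := fun u => rfl
  have hf1 : ∀ u, f u = 1 ∨ f u = ⟨z, hz⟩ := by
    intro u
    rw [hfdef]
    rcases hπ.v (h.act ⟨m, hm⟩ u) with h1 | h1 <;> rcases hπ.v u with h2 | h2 <;> rw [h1, h2]
    · left; rw [mul_one]
    · right; rw [one_mul]
    · right; rw [mul_one]
    · left; exact h.sqU _
  have hfz : f ⟨z, hz⟩ = 1 := by
    rw [hfdef, hmz', hπ.z, h.sqU]
  obtain ⟨r, hr, hr2⟩ := h.tv hf1 hfz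
  have hrR : r ∈ h.R hz hz1 := by
    refine ⟨hr, fun v hv => ?_⟩
    have h4 := hr2 ⟨v, hv⟩
    rcases hf1 ⟨v, hv⟩ with h5 | h5
    · left; rw [h5] at h4
      rw [h4]
      show (1 : G) * v = v
      rw [one_mul]
    · right; rw [h5] at h4; exact h4
  have hract : ∀ v : ↥U, h.act ⟨r, hr⟩ v = f v * v := fun v => Subtype.ext (hr2 v)
  have hmr : m * r ∈ hπ.K := by
    refine ⟨mul_mem hm hr, ?_, fun v => ?_⟩
    · have : (⟨m * r, mul_mem hm hr⟩ : ↥M) = ⟨m, hm⟩ * ⟨r, hr⟩ := rfl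
      rw [this, map_mul, MulAut.mul_apply, hract, hfz, one_mul, hmz']
    · have : (⟨m * r, mul_mem hm hr⟩ : ↥M) = ⟨m, hm⟩ * ⟨r, hr⟩ := rfl
      rw [this, map_mul, MulAut.mul_apply, hract, map_mul, map_mul]
      have h6 : π (h.act ⟨m, hm⟩ (f v)) = f v := by
        rcases hf1 v with h5 | h5
        · rw [h5, map_one, map_one]
        · rw [h5, hmz', hπ.z]
      rw [h6, hfdef]
      calc π (h.act ⟨m, hm⟩ v) * π v * π (h.act ⟨m, hm⟩ v) = π (h.act ⟨m, hm⟩ v) * (π v * π (h.act ⟨m, hm⟩ v)) := by group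
        _ = (π (h.act ⟨m, hm⟩ v) * π (h.act ⟨m, hm⟩ v)) * π v := by rw [h.commU (π v)]; group
        _ = π v := by rw [h.sqU, one_mul]
  refine ⟨u * (m * r⁻¹ * m⁻¹), mul_mem (U_le_Q h hz hz1 hu) (R_le_Q h hz hz1 (R_conj h hz hz1 hmz hm (inv_mem hrR))), m * r, hmr, ?_⟩
  have hrr := R_sq h hz hz1 hrR
  calc u * m = u * (m * r⁻¹ * m⁻¹) * (m * r) := by group
    _ = _ := rfl

theorem Q_inf_K : h.Q hz hz1 ⊓ hπ.K = ⊥ := by
  rw [eq_bot_iff]
  rintro x ⟨hx1, hx2⟩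
  obtain ⟨u, hu, r, hr, rfl⟩ := hx1
  have h1 : u ∈ U ⊓ M := by
    refine ⟨hu, ?_⟩
    have := mul_mem (hπ.K_le hx2) (inv_mem hr.1)
    rwa [mul_inv_cancel_right] at this
  rw [h.disj, Subgroup.mem_bot] at h1
  subst h1
  rw [one_mul] at hx2 ⊢
  rw [Subgroup.mem_bot]
  apply h.faith r hr.1
  intro v hv
  rcases hr.2 v hv with h2 | h2
  · exact h2
  · exfalso
    obtain ⟨hm, -, h3⟩ := hx2
    have h4 := h3 ⟨v, hv⟩
    have h5 : h.act ⟨r, hm⟩ ⟨v, hv⟩ = ⟨z, hz⟩ * ⟨v, hv⟩ := Subtype.ext h2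
    rw [h5, map_mul, hπ.z, mul_eq_right] at h4
    exact hz1 (congrArg Subtype.val h4)

theorem Q_norm_sub {C : Subgroup G} (hC : ∀ c, c ∈ C ↔ c * z = z * c) (hP : ∀ c, c * z = z * c → ∃ u ∈ U, ∃ m ∈ M, c = u * m) :
    ((h.Q hz hz1).subgroupOf C).Normal := ⟨by
  intro q hq c
  rw [Subgroup.mem_subgroupOf] at hq ⊢
  exact Q_conj h hz hz1 hP ((hC c).1 c.2) hq⟩

include hP hπ in
/-- the 2-core of the centralizer -/
theorem core_eq [Finite G] {C : Subgroup G} (hC : ∀ c, c ∈ C ↔ c * z = z * c) {n : ℕ} (hc : Nat.card U = 2 ^ (n + 1)) :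
    (Cfsg.pCore 2 ↥C).map C.subtype = h.Q hz hz1 := by
  haveI : Fact (Nat.Prime 2) := ⟨Nat.prime_two⟩
  have hQp : IsPGroup 2 ↥(h.Q hz hz1) := IsPGroup.of_card (card_Q h hz hz1 hc)
  have hQC : h.Q hz hz1 ≤ C := fun q hq => (hC q).2 (Q_z h hz hz1 hq)
  have hQn := Q_norm_sub (h := h) (hz := hz) hz1 hC hP
  have hle : h.Q hz hz1 ≤ (Cfsg.pCore 2 ↥C).map C.subtype := by
    have h1 : (h.Q hz hz1).subgroupOf C ≤ Cfsg.pCore 2 ↥C :=
      CfsgLib.Cores.le_pCore hQn (IsPGroup.of_equiv hQp (Subgroup.subgroupOfEquivOfLe hQC).symm)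
    intro q hq
    exact ⟨⟨q, hQC hq⟩, h1 (show (⟨q, hQC hq⟩ : ↥C) ∈ (h.Q hz hz1).subgroupOf C from hq), rfl⟩
  have hNp : IsPGroup 2 ↥((Cfsg.pCore 2 ↥C).map C.subtype) := IsPGroup.map (CfsgLib.Cores.pCore_isPGroup 2) _
  have hNn : ∀ c ∈ C, ∀ x ∈ (Cfsg.pCore 2 ↥C).map C.subtype, c * x * c⁻¹ ∈ (Cfsg.pCore 2 ↥C).map C.subtype := by
    rintro c hcC _ ⟨x, hx, rfl⟩
    have h1 : (Cfsg.pCore 2 ↥C).Normal := inferInstance
    exact ⟨_, h1.conj_mem x hx ⟨c, hcC⟩, rfl⟩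
  have hKC : hπ.K ≤ C := fun k hk => (hC k).2 (mul_inv_eq_iff_eq_mul.1 (hπ.K_z hk))
  have hL : (Cfsg.pCore 2 ↥C).map C.subtype ⊓ hπ.K = ⊥ := by
    apply hπ.hol.core_trivial inf_le_right (IsPGroup.to_le hNp inf_le_left)
    rintro k hk l ⟨hl1, hl2⟩
    exact Subgroup.mem_inf.2 ⟨hNn k (hKC hk) l hl1, hπ.K.mul_mem (hπ.K.mul_mem hk hl2) (hπ.K.inv_mem hk)⟩
  apply le_antisymm _ hle
  intro x hx
  have hxC : x ∈ C := by
    obtain ⟨y, -, rfl⟩ := hx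
    exact y.2
  obtain ⟨q, hq, k, hk, rfl⟩ := cz_QK hz1 hP hπ ((hC x).1 hxC)
  have h2 : k ∈ (Cfsg.pCore 2 ↥C).map C.subtype ⊓ hπ.K := by
    refine ⟨?_, hk⟩
    have h3 : q⁻¹ * (q * k) ∈ (Cfsg.pCore 2 ↥C).map C.subtype := Subgroup.mul_mem _ (Subgroup.inv_mem _ (hle hq)) hx
    rwa [inv_mul_cancel_left] at h3
  rw [hL, Subgroup.mem_bot] at h2
  rw [h2, mul_one]
  exact hq

end

/-- no odd order subgroup -/
theorem odd_trivial [Finite G] (h : Hol U M) {z : G} (hz : z ∈ U) (hz1 : z ≠ 1) (hP : ∀ c, c * z = z * c → ∃ u ∈ U, ∃ m ∈ M, c = u * m)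
    {n : ℕ} (hn : 1 ≤ n) (hc : Nat.card U = 2 ^ (n + 1)) {K : Subgroup G} (hK : Odd (Nat.card K))
    (hUK : ∀ u ∈ U, ∀ k ∈ K, u * k * u⁻¹ ∈ K) : K = ⊥ := by
  haveI : Fact (Nat.Prime 2) := ⟨Nat.prime_two⟩
  have hUK1 : ∀ x, x ∈ U → x ∈ K → x = 1 := by
    intro x hxU hxK
    have h1 : orderOf x ∣ 2 := orderOf_dvd_of_pow_eq_one (by rw [pow_two]; exact h.sq x hxU)
    have h2 : orderOf x ∣ Nat.card K := Subgroup.orderOf_dvd_natCard K hxK
    have h3 : Nat.Coprime 2 (Nat.card K) := Nat.coprime_two_left.2 hK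
    have h4 : orderOf x = 1 := Nat.eq_one_of_dvd_coprimes h3 h1 h2
    exact orderOf_eq_one_iff.1 h4
  have hcent : ∀ u ∈ U, u ≠ 1 → ∀ k ∈ K, u * k = k * u → k = 1 := by
    intro u hu hu1 k hk hku
    obtain ⟨m, hm, hmu⟩ := h.trans hz hz1 hu hu1
    have h1 : (m⁻¹ * k * m) * z = z * (m⁻¹ * k * m) := by
      have e1 : (m⁻¹ * k * m) * z = m⁻¹ * (k * (m * z * m⁻¹)) * m := by group
      have e2 : z * (m⁻¹ * k * m) = m⁻¹ * ((m * z * m⁻¹) * k) * m := by group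
      rw [e1, e2, hmu, hku]
    have h2 := cz_norm h hz hP h1
    have h3 : ∀ v ∈ U, k * v * k⁻¹ ∈ U := by
      intro v hv
      have h4 := h2 (m⁻¹ * v * m⁻¹⁻¹) (h.norm _ (inv_mem hm) v hv)
      have h5 := h.norm m hm _ h4
      have e : m * ((m⁻¹ * k * m) * (m⁻¹ * v * m⁻¹⁻¹) * (m⁻¹ * k * m)⁻¹) * m⁻¹ = k * v * k⁻¹ := by group
      rwa [e] at h5
    have h4 : ∀ v ∈ U, k * v * k⁻¹ = v := by
      intro v hv
      have h5 : k * v * k⁻¹ * v⁻¹ = 1 := by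
        apply hUK1
        · exact mul_mem (h3 v hv) (inv_mem hv)
        · have e : k * v * k⁻¹ * v⁻¹ = k * (v * k⁻¹ * v⁻¹) := by group
          rw [e]
          exact mul_mem hk (hUK v hv _ (inv_mem hk))
      exact mul_inv_eq_one.1 h5
    have h5 : k * z = z * k := mul_inv_eq_iff_eq_mul.1 (h4 z hz)
    obtain ⟨u', hu', m', hm', -, he⟩ := cz_dec h hz hP h5
    have h6 : m' = 1 := by
      apply h.faith m' hm'
      intro v hv
      have h7 := h4 v hv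
      rw [he] at h7
      have e : u' * m' * v * (u' * m')⁻¹ = u' * (m' * v * m'⁻¹) * u'⁻¹ := by group
      rw [e, h.comm hu' (h.norm m' hm' v hv), mul_inv_cancel_right] at h7
      exact h7
    rw [h6, mul_one] at he
    exact hUK1 k (he ▸ hu') hk
  have hinv : ∀ u ∈ U, u ≠ 1 → ∀ k ∈ K, u * k * u⁻¹ = k⁻¹ := by
    intro u hu hu1 k hk
    let φ : ↥K →* ↥K :=
      { toFun := fun k => ⟨u * k * u⁻¹, hUK u hu k k.2⟩
        map_one' := Subtype.ext (by show u * 1 * u⁻¹ = 1; group)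
        map_mul' := fun a b => Subtype.ext (by
          show u * ((a : G) * b) * u⁻¹ = (u * a * u⁻¹) * (u * b * u⁻¹)
          group) }
    have hfpf : MonoidHom.FixedPointFree φ := by
      intro g hg
      have h1 : u * (g : G) * u⁻¹ = g := congrArg Subtype.val hg
      exact Subtype.ext (hcent u hu hu1 g g.2 (mul_inv_eq_iff_eq_mul.1 h1))
    have hinvol : Function.Involutive φ := by
      intro g
      apply Subtype.ext
      show u * (u * (g : G) * u⁻¹) * u⁻¹ = g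
      have e : u * (u * (g : G) * u⁻¹) * u⁻¹ = (u * u) * g * (u * u)⁻¹ := by group
      rw [e, h.sq u hu]; group
    have h2 := hfpf.coe_eq_inv_of_involutive hinvol
    have h3 := congrFun h2 ⟨k, hk⟩
    exact congrArg Subtype.val h3
  -- two distinct involutions
  have h4 : ∃ u ∈ U, u ≠ 1 ∧ u ≠ z := by
    by_contra hcon
    push Not at hcon
    have h5 : (U : Set G) ⊆ {1, z} := by
      intro u hu
      by_cases hu1 : u = 1
      · exact Or.inl hu1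
      · exact Or.inr (hcon u hu hu1)
    have h6 : Nat.card U ≤ 2 := by
      have h7 := Set.ncard_le_ncard h5 (Set.toFinite _)
      rw [Set.ncard_pair (Ne.symm hz1)] at h7
      exact h7
    rw [hc] at h6
    have h8 : 2 ^ 2 ≤ 2 ^ (n + 1) := Nat.pow_le_pow_right (by norm_num) (by omega)
    omega
  obtain ⟨u, hu, hu1, huz⟩ := h4
  rw [eq_bot_iff]
  intro k hk
  rw [Subgroup.mem_bot]
  have huz1 : u * z ≠ 1 := by
    intro h5
    apply huz
    rw [mul_eq_one_iff_eq_inv, h.inv hz] at h5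
    exact h5
  apply hcent (u * z) (mul_mem hu hz) huz1 k hk
  have h5 := hinv z hz hz1 k hk
  have h6 := hinv u hu hu1 k⁻¹ (inv_mem hk)
  have h7 : (u * z) * k * (u * z)⁻¹ = k := by
    have e : (u * z) * k * (u * z)⁻¹ = u * (z * k * z⁻¹) * u⁻¹ := by group
    rw [e, h5, h6, inv_inv]
  exact mul_inv_eq_iff_eq_mul.1 h7

theorem main [Finite G] (h : Hol U M) {z : G} (hz : z ∈ U) (hz1 : z ≠ 1) (hP : ∀ c, c * z = z * c → ∃ u ∈ U, ∃ m ∈ M, c = u * m)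
    {n : ℕ} (hn : 1 ≤ n) (hc : Nat.card U = 2 ^ (n + 1)) {C Q : Subgroup G} (hC : ∀ c, c ∈ C ↔ c * z = z * c)
    (hQ : Q = (Cfsg.pCore 2 ↥C).map C.subtype) :
    Cfsg.IsExtraspecial 2 ↥Q ∧ Nat.card ↥Q = 2 ^ (2 * n + 1) ∧
      (∃ E : Subgroup G, E ≤ Q ∧ Cfsg.IsElementaryAbelian 2 E ∧ Nat.card ↥E = 2 ^ (n + 1)) ∧
      Cfsg.IsLargeExtraspecial Q ∧
      ∃ K : Subgroup G, K ≤ C ∧ Q ⊓ K = ⊥ ∧ Q ⊔ K = C ∧ Nonempty (↥K ≃* GL (Fin n) (ZMod 2)) := by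
  obtain ⟨π, hπ⟩ := exists_pi h hz hz1
  rw [core_eq hz1 hP hπ hC hc] at hQ
  subst hQ
  obtain ⟨he1, he2⟩ := Q_extraspecial h hz hz1 hn hc
  have hQC : h.Q hz hz1 ≤ C := fun q hq => (hC q).2 (Q_z h hz hz1 hq)
  have hKC : hπ.K ≤ C := fun k hk => (hC k).2 (mul_inv_eq_iff_eq_mul.1 (hπ.K_z hk))
  refine ⟨he1, card_Q h hz hz1 hc, ⟨U, U_le_Q h hz hz1, ⟨⟨⟨fun a b => h.commU a b⟩⟩, fun a ha => by rw [pow_two]; exact h.sq a ha⟩, hc⟩,
    ⟨he1, ?_, ?_, ?_⟩, hπ.K, hKC, Q_inf_K hz1 hπ, ?_, hπ.hol.equivGL (hπ.card_W hz1 hc)⟩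
  · rw [he2]
    apply le_antisymm
    · intro c hcc
      rw [Subgroup.mem_centralizer_iff] at hcc
      have h1 : c * z = z * c := (hcc z (U_le_Q h hz hz1 hz)).symm
      obtain ⟨u, hu, m, hm, -, rfl⟩ := cz_dec h hz hP h1
      have h6 : m = 1 := by
        apply h.faith m hm
        intro v hv
        have h7 := hcc v (U_le_Q h hz hz1 hv)
        have h8 : u * (v * m) = u * (m * v) := by
          calc u * (v * m) = (v * u) * m := by rw [h.comm hv hu]; group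
            _ = u * (m * v) := by
              have : v * u * m = v * (u * m) := by group
              rw [this, h7]; group
        exact mul_inv_eq_iff_eq_mul.2 (mul_left_cancel h8).symm
      subst h6
      rw [mul_one] at hcc ⊢
      rcases Q_center h hz hz1 (U_le_Q h hz hz1 hu) (fun y hy => (hcc y hy).symm) with h2 | h2
      · rw [h2]; exact one_mem _
      · rw [h2]; exact Subgroup.mem_zpowers _
    · rw [Subgroup.zpowers_le, Subgroup.mem_centralizer_iff]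
      exact fun q hq => Q_z h hz hz1 hq
  · rw [he2]
    intro c hcc
    rw [Subgroup.mem_centralizer_iff] at hcc
    have h1 : c * z = z * c := (hcc z (Subgroup.mem_zpowers _)).symm
    have h1' : c⁻¹ * z = z * c⁻¹ := by
      have this : c⁻¹ * (c * z) * c⁻¹ = c⁻¹ * (z * c) * c⁻¹ := by rw [h1]
      have e1 : c⁻¹ * (c * z) * c⁻¹ = z * c⁻¹ := by group
      have e2 : c⁻¹ * (z * c) * c⁻¹ = c⁻¹ * z := by group
      rw [e1, e2] at this
      exact this.symm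
    rw [Subgroup.mem_normalizer_iff]
    intro q
    constructor
    · intro hq; exact Q_conj h hz hz1 hP h1 hq
    · intro hq
      have := Q_conj h hz hz1 hP h1' hq
      have e : c⁻¹ * (c * q * c⁻¹) * c⁻¹⁻¹ = q := by group
      rwa [e] at this
  · intro K hK hQK
    apply odd_trivial h hz hz1 hP hn hc hK
    intro u hu k hk
    exact (Subgroup.mem_normalizer_iff.1 (hQK (U_le_Q h hz hz1 hu)) k).1 hk
  · apply le_antisymm (sup_le hQC hKC)
    intro c hcC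
    obtain ⟨q, hq, k, hk, rfl⟩ := cz_QK hz1 hP hπ ((hC c).1 hcC)
    exact mul_mem (Subgroup.mem_sup_left hq) (Subgroup.mem_sup_right hk)

end CfsgLib.Hol28
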