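import Mathlib
import Cfsg.Agent.EqBase
import Cfsg.Agent.LibHolB28

set_option autoImplicit false

/-! Recognition by order (helper28). -/

namespace CfsgLib.Hol28

theorem Hol.of_card {G : Type*} [Group G] [Finite G] {U M : Subgroup G} (sq : ∀ u ∈ U, u * u = 1)
    (norm : ∀ m ∈ M, ∀ u ∈ U, m * u * m⁻¹ ∈ U) (disj : U ⊓ M = ⊥)
    (faith : ∀ m ∈ M, (∀ u ∈ U, m * u * m⁻¹ = u) → m = 1) {e : ℕ} (hc : Nat.card U = 2 ^ e)
    (hM : Nat.card (GL (Fin e) (ZMod 2)) ≤ Nat.card M) : Hol U M := by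
  haveI : Fact (Nat.Prime 2) := ⟨Nat.prime_two⟩
  refine ⟨sq, norm, disj, faith, ?_⟩
  have inv : ∀ u ∈ U, u⁻¹ = u := fun u hu => inv_eq_of_mul_eq_one_left (sq u hu)
  have comm : ∀ u ∈ U, ∀ v ∈ U, u * v = v * u := by
    intro u hu v hv
    have h1 := inv _ (mul_mem hu hv)
    rw [mul_inv_rev, inv u hu, inv v hv] at h1
    exact h1.symm
  let act : ↥M →* MulAut ↥U :=
    { toFun := fun m =>
        { toFun := fun u => ⟨(m : G) * u * (m : G)⁻¹, norm m m.2 u u.2⟩
          invFun := fun u => ⟨(m : G)⁻¹ * u * (m : G)⁻¹⁻¹, norm _ (inv_mem m.2) u u.2⟩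
          left_inv := fun u => Subtype.ext (by show (m : G)⁻¹ * ((m : G) * u * (m : G)⁻¹) * (m : G)⁻¹⁻¹ = u; group)
          right_inv := fun u => Subtype.ext (by show (m : G) * ((m : G)⁻¹ * u * (m : G)⁻¹⁻¹) * (m : G)⁻¹ = u; group)
          map_mul' := fun u v => Subtype.ext (by
            show (m : G) * ((u : G) * v) * (m : G)⁻¹ = ((m : G) * u * (m : G)⁻¹) * ((m : G) * v * (m : G)⁻¹)
            group) }
      map_one' := by
        ext u
        show (1 : G) * u * (1 : G)⁻¹ = u
        group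
      map_mul' := fun a b => by
        ext u
        show ((a : G) * b) * u * ((a : G) * b)⁻¹ = (a : G) * ((b : G) * u * (b : G)⁻¹) * (a : G)⁻¹
        group }
  have hinj : Function.Injective act := by
    rw [injective_iff_map_eq_one]
    intro m hm
    apply Subtype.ext
    apply faith m m.2
    intro u hu
    have := congrArg (fun φ : MulAut ↥U => ((φ ⟨u, hu⟩ : ↥U) : G)) hm
    exact this
  have hcard : Nat.card (MulAut ↥U) = Nat.card (GL (Fin e) (ZMod 2)) := by
    letI : CommGroup ↥U := { (inferInstance : Group ↥U) with mul_comm := fun a b => Subtype.ext (comm a a.2 b b.2) }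
    obtain ⟨e2⟩ := exists_GL_equiv (A := ↥U) 2 e (fun a => by rw [pow_two]; exact Subtype.ext (sq a a.2)) hc
    exact Nat.card_congr e2.toEquiv
  haveI : Finite (MulAut ↥U) := Finite.of_injective (fun φ : MulAut ↥U => (φ : ↥U → ↥U)) DFunLike.coe_injective
  have hbij := hinj.bijective_of_nat_card_le (by rw [hcard]; exact hM)
  intro φ
  obtain ⟨m, hm⟩ := hbij.2 φ
  refine ⟨m, m.2, fun u => ?_⟩
  have := congrArg (fun ψ : MulAut ↥U => ((ψ u : ↥U) : G)) hm
  exact this.symm

theorem GL_equiv_SL {n : Type*} [Fintype n] [DecidableEq n] : Nonempty (GL n (ZMod 2) ≃* Matrix.SpecialLinearGroup n (ZMod 2)) := by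
  have hu : ∀ x : ZMod 2, x ≠ 0 → x = 1 := by decide
  have hbij : Function.Bijective (Matrix.SpecialLinearGroup.toGL : Matrix.SpecialLinearGroup n (ZMod 2) →* GL n (ZMod 2)) := by
    constructor
    · intro a b hab
      apply Subtype.ext
      have := congrArg (fun g : GL n (ZMod 2) => (g : Matrix n n (ZMod 2))) hab
      exact this
    · intro g
      have hd : (g : Matrix n n (ZMod 2)).det = 1 := by
        apply hu
        have h1 : IsUnit (g : Matrix n n (ZMod 2)).det := (Matrix.isUnit_iff_isUnit_det _).1 g.isUnit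
        exact h1.ne_zero
      exact ⟨⟨g, hd⟩, Units.ext rfl⟩
  exact ⟨(MulEquiv.ofBijective _ hbij).symm⟩

end CfsgLib.Hol28
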