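import Mathlib
import Cfsg.Agent.EqBase
import Cfsg.Agent.LibHolF28

set_option autoImplicit false

/-! The parabolic subgroup of `SL_{n+2}(2)` (helper28). -/

namespace CfsgLib.Hol28

open Matrix

theorem z2_ne : ∀ x : ZMod 2, x ≠ 0 → x = 1 := by decide
theorem z2_add : ∀ x : ZMod 2, x + x = 0 := by decide

/-- invertible matrices have determinant one -/
def tosl {m : Type*} [Fintype m] [DecidableEq m] : GL m (ZMod 2) →* SpecialLinearGroup m (ZMod 2) where
  toFun g := ⟨g, z2_ne _ ((Matrix.isUnit_iff_isUnit_det _).1 g.isUnit).ne_zero⟩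
  map_one' := Subtype.ext rfl
  map_mul' _ _ := Subtype.ext rfl

variable {n : ℕ}

/-- block diagonal -/
def Dm : Matrix (Fin (n + 1)) (Fin (n + 1)) (ZMod 2) →* Matrix (Fin (n + 2)) (Fin (n + 2)) (ZMod 2) where
  toFun h := Matrix.of (Fin.cons (Fin.cons 1 0) (fun i => Fin.cons 0 (h i)))
  map_one' := by
    ext i j
    refine Fin.cases ?_ (fun i => ?_) i <;> refine Fin.cases ?_ (fun j => ?_) j
    · rfl
    · rfl
    · rfl
    · show (1 : Matrix (Fin (n + 1)) (Fin (n + 1)) (ZMod 2)) i j = (1 : Matrix (Fin (n + 2)) (Fin (n + 2)) (ZMod 2)) i.succ j.succ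
      rw [Matrix.one_apply, Matrix.one_apply]
      simp only [Fin.succ_inj]
  map_mul' h k := by
    ext i j
    rw [Matrix.mul_apply, Fin.sum_univ_succ]
    refine Fin.cases ?_ (fun i => ?_) i <;> refine Fin.cases ?_ (fun j => ?_) j
    · have e : ∑ x : Fin (n + 1), ((Fin.cons 0 (0 : Fin (n + 1) → ZMod 2) : Fin (n + 2) → ZMod 2) x.succ) * 0 = 0 :=
        Finset.sum_eq_zero (fun x _ => mul_zero _)
      show (1 : ZMod 2) = 1 * 1 + ∑ x : Fin (n + 1), ((Fin.cons 0 (0 : Fin (n + 1) → ZMod 2) : Fin (n + 2) → ZMod 2) x.succ) * 0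
      rw [e, mul_one, add_zero]
    · show (0 : ZMod 2) = 1 * 0 + ∑ x : Fin (n + 1), 0 * k x j
      simp
    · show (0 : ZMod 2) = 0 * 1 + ∑ x : Fin (n + 1), h i x * 0
      simp
    · show (h * k) i j = 0 * 0 + ∑ x : Fin (n + 1), h i x * k x j
      rw [Matrix.mul_apply]; simp

/-- the unipotent matrices -/
def Tm (f : Fin (n + 1) → ZMod 2) : Matrix (Fin (n + 2)) (Fin (n + 2)) (ZMod 2) :=
  Matrix.of (Fin.cons (Fin.cons 1 f) (fun i => (1 : Matrix (Fin (n + 2)) (Fin (n + 2)) (ZMod 2)) i.succ))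

theorem Tm_zero : Tm (0 : Fin (n + 1) → ZMod 2) = 1 := by
  ext i j
  refine Fin.cases ?_ (fun i => ?_) i <;> refine Fin.cases ?_ (fun j => ?_) j <;> rfl

theorem one_succ (i : Fin (n + 1)) (j : Fin (n + 2)) (h : j = 0) : (1 : Matrix (Fin (n + 2)) (Fin (n + 2)) (ZMod 2)) i.succ j = 0 := by
  rw [h, Matrix.one_apply, if_neg (Fin.succ_ne_zero i)]

/-- a matrix with rows `i+1` trivial acts by -/
theorem Tm_mul (f g : Fin (n + 1) → ZMod 2) : Tm f * Tm g = Tm (f + g) := by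
  ext i j
  rw [Matrix.mul_apply]
  refine Fin.cases ?_ (fun i => ?_) i
  · rw [Fin.sum_univ_succ]
    refine Fin.cases ?_ (fun j => ?_) j
    · show (1 : ZMod 2) * 1 + ∑ x : Fin (n + 1), f x * (1 : Matrix (Fin (n + 2)) (Fin (n + 2)) (ZMod 2)) x.succ 0 = 1
      simp [one_succ]
    · show (1 : ZMod 2) * g j + ∑ x : Fin (n + 1), f x * (1 : Matrix (Fin (n + 2)) (Fin (n + 2)) (ZMod 2)) x.succ j.succ = f j + g j
      simp [Matrix.one_apply, Fin.succ_inj, add_comm]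
  · show ∑ x : Fin (n + 2), (1 : Matrix (Fin (n + 2)) (Fin (n + 2)) (ZMod 2)) i.succ x * Tm g x j = Tm g i.succ j
    rw [← Matrix.mul_apply, Matrix.one_mul]

/-- the unipotent radical of the point stabiliser -/
def UU (n : ℕ) : Subgroup (SpecialLinearGroup (Fin (n + 2)) (ZMod 2)) where
  carrier := {x | ∃ f : Fin (n + 1) → ZMod 2, (x : Matrix (Fin (n + 2)) (Fin (n + 2)) (ZMod 2)) = Tm f}
  one_mem' := ⟨0, by rw [Tm_zero]; rfl⟩
  mul_mem' := by
    rintro a b ⟨f, hf⟩ ⟨g, hg⟩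
    exact ⟨f + g, by rw [← Tm_mul, ← hf, ← hg]; rfl⟩
  inv_mem' := by
    rintro a ⟨f, hf⟩
    have h1 : a * a = 1 := by
      apply Subtype.ext
      show (a : Matrix (Fin (n + 2)) (Fin (n + 2)) (ZMod 2)) * (a : Matrix (Fin (n + 2)) (Fin (n + 2)) (ZMod 2)) = 1
      rw [hf, Tm_mul]
      have : f + f = 0 := funext fun i => z2_add _
      rw [this, Tm_zero]
    rw [inv_eq_of_mul_eq_one_left h1]
    exact ⟨f, hf⟩

theorem Tm_inj : Function.Injective (Tm : (Fin (n + 1) → ZMod 2) → _) := by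
  intro f g h
  ext j
  have := congrFun (congrFun h 0) j.succ
  exact this

theorem Tm_det (f : Fin (n + 1) → ZMod 2) : (Tm f).det = 1 := by
  apply z2_ne
  have h1 : Tm f * Tm f = 1 := by
    rw [Tm_mul]
    have : f + f = 0 := funext fun i => z2_add _
    rw [this, Tm_zero]
  intro h2
  have h3 := congrArg Matrix.det h1
  rw [Matrix.det_mul, h2, zero_mul, Matrix.det_one] at h3
  exact one_ne_zero h3.symm

theorem card_UU : Nat.card ↥(UU n) = 2 ^ (n + 1) := by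
  have h1 : Nat.card (Fin (n + 1) → ZMod 2) = 2 ^ (n + 1) := by
    rw [Nat.card_fun, Nat.card_zmod, Nat.card_fin]
  rw [← h1]
  symm
  refine Nat.card_congr (Equiv.ofBijective (fun f => (⟨⟨Tm f, Tm_det f⟩, f, rfl⟩ : ↥(UU n))) ⟨?_, ?_⟩)
  · intro f g h
    apply Tm_inj
    exact congrArg (fun x : ↥(UU n) => ((x : SpecialLinearGroup (Fin (n + 2)) (ZMod 2)) : Matrix (Fin (n + 2)) (Fin (n + 2)) (ZMod 2))) h
  · rintro ⟨x, f, hf⟩
    exact ⟨f, Subtype.ext (Subtype.ext hf.symm)⟩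

/-- the Levi complement -/
def MMn (n : ℕ) : Subgroup (SpecialLinearGroup (Fin (n + 2)) (ZMod 2)) := (tosl.comp (Units.map (Dm (n := n)))).range

theorem coe_MMn {g : GL (Fin (n + 1)) (ZMod 2)} : ((tosl.comp (Units.map (Dm (n := n))) g : SpecialLinearGroup (Fin (n + 2)) (ZMod 2)) : Matrix (Fin (n + 2)) (Fin (n + 2)) (ZMod 2)) = Dm (g : Matrix _ _ _) := rfl

theorem Dm_inj : Function.Injective (Dm (n := n)) := by
  intro f g h
  ext i j
  exact congrFun (congrFun h i.succ) j.succ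

theorem card_MMn : Nat.card ↥(MMn n) = Nat.card (GL (Fin (n + 1)) (ZMod 2)) := by
  have hinj : Function.Injective (tosl.comp (Units.map (Dm (n := n)))) := by
    intro f g h
    apply Units.ext
    apply Dm_inj
    exact congrArg (fun x : SpecialLinearGroup (Fin (n + 2)) (ZMod 2) => (x : Matrix (Fin (n + 2)) (Fin (n + 2)) (ZMod 2))) h
  exact (Nat.card_congr (MonoidHom.ofInjective hinj).toEquiv).symm

/-- the commutation rule -/
theorem Dm_Tm_comm (h : Matrix (Fin (n + 1)) (Fin (n + 1)) (ZMod 2)) (f : Fin (n + 1) → ZMod 2) :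
    Tm f * Dm h = Dm h * Tm (Matrix.vecMul f h) := by
  ext i j
  rw [Matrix.mul_apply, Matrix.mul_apply]
  refine Fin.cases ?_ (fun i => ?_) i
  · rw [Fin.sum_univ_succ (n := n + 1), Fin.sum_univ_succ (n := n + 1) (f := fun j_1 => Dm h 0 j_1 * Tm (Matrix.vecMul f h) j_1 j)]
    refine Fin.cases ?_ (fun j => ?_) j
    · show (1 : ZMod 2) * 1 + ∑ x : Fin (n + 1), f x * 0 = 1 * 1 + ∑ x : Fin (n + 1), 0 * Tm (Matrix.vecMul f h) x.succ 0
      simp
    · show (1 : ZMod 2) * 0 + ∑ x : Fin (n + 1), f x * h x j = 1 * Matrix.vecMul f h j + ∑ x : Fin (n + 1), 0 * Tm (Matrix.vecMul f h) x.succ j.succ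
      simp [Matrix.vecMul, dotProduct]
  · have e1 : ∑ x : Fin (n + 2), Tm f i.succ x * Dm h x j = Dm h i.succ j := by
      show ∑ x : Fin (n + 2), (1 : Matrix (Fin (n + 2)) (Fin (n + 2)) (ZMod 2)) i.succ x * Dm h x j = Dm h i.succ j
      rw [← Matrix.mul_apply, Matrix.one_mul]
    rw [e1, Fin.sum_univ_succ]
    refine Fin.cases ?_ (fun j => ?_) j
    · show (0 : ZMod 2) = 0 * 1 + ∑ x : Fin (n + 1), h i x * (1 : Matrix (Fin (n + 2)) (Fin (n + 2)) (ZMod 2)) x.succ 0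
      simp [one_succ]
    · show h i j = 0 * _ + ∑ x : Fin (n + 1), h i x * (1 : Matrix (Fin (n + 2)) (Fin (n + 2)) (ZMod 2)) x.succ j.succ
      simp [Matrix.one_apply, Fin.succ_inj]

end CfsgLib.Hol28
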