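import Mathlib
import Cfsg.Agent.EqBase
import Cfsg.Agent.LibHolG28

set_option autoImplicit false

/-! The transvection centraliser in `SL_{n+2}(2)` (helper28). -/

namespace CfsgLib.Hol28

open Matrix

variable {n : ℕ}

/-- the Levi embedding -/
def Ds (n : ℕ) : GL (Fin (n + 1)) (ZMod 2) →* SpecialLinearGroup (Fin (n + 2)) (ZMod 2) := tosl.comp (Units.map (Dm (n := n)))

/-- unipotent elements -/
def Ts (f : Fin (n + 1) → ZMod 2) : SpecialLinearGroup (Fin (n + 2)) (ZMod 2) := ⟨Tm f, Tm_det f⟩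

theorem Ts_mem (f : Fin (n + 1) → ZMod 2) : Ts f ∈ UU n := ⟨f, rfl⟩

theorem mem_UU {x : SpecialLinearGroup (Fin (n + 2)) (ZMod 2)} (hx : x ∈ UU n) : ∃ f, x = Ts f := by
  obtain ⟨f, hf⟩ := hx
  exact ⟨f, Subtype.ext hf⟩

theorem mem_MMn {x : SpecialLinearGroup (Fin (n + 2)) (ZMod 2)} (hx : x ∈ MMn n) : ∃ g, x = Ds n g := by
  obtain ⟨g, hg⟩ := hx
  exact ⟨g, hg.symm⟩

theorem Ds_mem (g : GL (Fin (n + 1)) (ZMod 2)) : Ds n g ∈ MMn n := ⟨g, rfl⟩

theorem Ts_Ds (g : GL (Fin (n + 1)) (ZMod 2)) (f : Fin (n + 1) → ZMod 2) : Ts f * Ds n g = Ds n g * Ts (Matrix.vecMul f (g : Matrix _ _ _)) :=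
  Subtype.ext (Dm_Tm_comm _ _)

theorem Ts_inj {f g : Fin (n + 1) → ZMod 2} (h : Ts f = Ts g) : f = g :=
  Tm_inj (congrArg (fun x : SpecialLinearGroup (Fin (n + 2)) (ZMod 2) => (x : Matrix (Fin (n + 2)) (Fin (n + 2)) (ZMod 2))) h)

theorem holSL (n : ℕ) : Hol (UU n) (MMn n) := by
  apply Hol.of_card (e := n + 1)
  · intro u hu
    obtain ⟨f, rfl⟩ := mem_UU hu
    apply Subtype.ext
    show Tm f * Tm f = 1
    rw [Tm_mul]
    have : f + f = 0 := funext fun i => z2_add _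
    rw [this, Tm_zero]
  · intro m hm u hu
    obtain ⟨g, rfl⟩ := mem_MMn hm
    obtain ⟨f, rfl⟩ := mem_UU hu
    have h1 := Ts_Ds g⁻¹ f
    have h2 : Ds n g * Ts f * (Ds n g)⁻¹ = Ts (Matrix.vecMul f ((g⁻¹ : GL (Fin (n + 1)) (ZMod 2)) : Matrix _ _ _)) := by
      rw [mul_assoc, ← map_inv, h1, ← mul_assoc, ← map_mul, mul_inv_cancel, map_one, one_mul]
    rw [h2]
    exact Ts_mem _
  · rw [eq_bot_iff]
    rintro x ⟨hx1, hx2⟩
    obtain ⟨f, rfl⟩ := mem_UU hx1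
    obtain ⟨g, hg⟩ := mem_MMn hx2
    rw [Subgroup.mem_bot]
    have h1 : Tm f = Dm (g : Matrix _ _ _) := congrArg (fun x : SpecialLinearGroup (Fin (n + 2)) (ZMod 2) => (x : Matrix (Fin (n + 2)) (Fin (n + 2)) (ZMod 2))) hg
    have h2 : f = 0 := by
      ext j
      exact congrFun (congrFun h1 0) j.succ
    apply Subtype.ext
    show Tm f = 1
    rw [h2, Tm_zero]
  · intro m hm hu
    obtain ⟨g, rfl⟩ := mem_MMn hm
    have h1 : ∀ f : Fin (n + 1) → ZMod 2, Matrix.vecMul f (g : Matrix _ _ _) = f := by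
      intro f
      have h2 := mul_inv_eq_iff_eq_mul.1 (hu (Ts f) (Ts_mem f))
      rw [Ts_Ds] at h2
      exact (Ts_inj (mul_left_cancel h2)).symm
    have h3 : (g : Matrix (Fin (n + 1)) (Fin (n + 1)) (ZMod 2)) = 1 := by
      ext i j
      have h4 := congrFun (h1 (Pi.single i 1)) j
      rw [Matrix.single_one_vecMul] at h4
      rw [show (g : Matrix (Fin (n + 1)) (Fin (n + 1)) (ZMod 2)) i j = (g : Matrix (Fin (n + 1)) (Fin (n + 1)) (ZMod 2)).row i j from rfl, h4,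
        Matrix.one_apply, Pi.single_apply]
      simp only [eq_comm]
    have h4 : g = 1 := Units.ext h3
    rw [h4, map_one]
  · exact card_UU
  · rw [card_MMn]

theorem z_eq : (Matrix.transvection 0 1 1 : Matrix (Fin (n + 2)) (Fin (n + 2)) (ZMod 2)) = Tm (Pi.single 0 1) := by
  ext i j
  refine Fin.cases ?_ (fun i => ?_) i
  · refine Fin.cases ?_ (fun j => ?_) j
    · show (Matrix.transvection 0 1 1 : Matrix (Fin (n + 2)) (Fin (n + 2)) (ZMod 2)) 0 0 = 1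
      simp [Matrix.transvection, Matrix.single_apply]
    · show (Matrix.transvection 0 1 1 : Matrix (Fin (n + 2)) (Fin (n + 2)) (ZMod 2)) 0 j.succ = (Pi.single 0 1 : Fin (n + 1) → ZMod 2) j
      rw [Matrix.transvection, Matrix.add_apply, Matrix.one_apply, if_neg (Fin.succ_ne_zero j).symm, zero_add, Matrix.single_apply,
        Pi.single_apply]
      congr 1
      rw [eq_iff_iff]
      constructor
      · rintro ⟨-, h⟩
        exact (Fin.succ_inj.1 (show (Fin.succ 0 : Fin (n + 2)) = j.succ from h)).symm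
      · rintro rfl
        exact ⟨rfl, rfl⟩
  · show (Matrix.transvection 0 1 1 : Matrix (Fin (n + 2)) (Fin (n + 2)) (ZMod 2)) i.succ j = (1 : Matrix (Fin (n + 2)) (Fin (n + 2)) (ZMod 2)) i.succ j
    rw [Matrix.transvection, Matrix.add_apply, Matrix.single_apply, if_neg, add_zero]
    rintro ⟨h, -⟩
    exact (Fin.succ_ne_zero i).symm h

theorem col_zero {c : Matrix (Fin (n + 2)) (Fin (n + 2)) (ZMod 2)}
    (hc : c * (Matrix.transvection 0 1 1) = (Matrix.transvection 0 1 1) * c) (i : Fin (n + 1)) : c i.succ 0 = 0 := by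
  rw [Matrix.transvection, mul_add, add_mul, mul_one, one_mul, add_right_inj] at hc
  have h1 := congrFun (congrFun hc i.succ) 1
  rw [Matrix.mul_single_apply_same, Matrix.single_mul_apply_of_ne _ _ _ _ _ (Fin.succ_ne_zero i)] at h1
  rw [mul_one] at h1
  exact h1

theorem par_dec {c : SpecialLinearGroup (Fin (n + 2)) (ZMod 2)} {z : SpecialLinearGroup (Fin (n + 2)) (ZMod 2)}
    (hz : (z : Matrix (Fin (n + 2)) (Fin (n + 2)) (ZMod 2)) = Matrix.transvection 0 1 1) (hc : c * z = z * c) :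
    ∃ u ∈ UU n, ∃ m ∈ MMn n, c = u * m := by
  have hcol : ∀ d : SpecialLinearGroup (Fin (n + 2)) (ZMod 2), d * z = z * d →
      ∀ i : Fin (n + 1), (d : Matrix (Fin (n + 2)) (Fin (n + 2)) (ZMod 2)) i.succ 0 = 0 := by
    intro d hd
    apply col_zero
    rw [← hz]
    exact congrArg (fun x : SpecialLinearGroup (Fin (n + 2)) (ZMod 2) => (x : Matrix (Fin (n + 2)) (Fin (n + 2)) (ZMod 2))) hd
  have hc' : c⁻¹ * z = z * c⁻¹ := by
    have this : c⁻¹ * (c * z) * c⁻¹ = c⁻¹ * (z * c) * c⁻¹ := by rw [hc]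
    have e1 : c⁻¹ * (c * z) * c⁻¹ = z * c⁻¹ := by group
    have e2 : c⁻¹ * (z * c) * c⁻¹ = c⁻¹ * z := by group
    rw [e1, e2] at this
    exact this.symm
  have key : ∀ d e : SpecialLinearGroup (Fin (n + 2)) (ZMod 2), d * z = z * d → d * e = 1 →
      ((d : Matrix (Fin (n + 2)) (Fin (n + 2)) (ZMod 2)).submatrix Fin.succ Fin.succ) * ((e : Matrix (Fin (n + 2)) (Fin (n + 2)) (ZMod 2)).submatrix Fin.succ Fin.succ) = 1 := by
    intro d e hd hde
    ext i j
    have h1 : (d : Matrix (Fin (n + 2)) (Fin (n + 2)) (ZMod 2)) * (e : Matrix (Fin (n + 2)) (Fin (n + 2)) (ZMod 2)) = 1 :=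
      congrArg (fun x : SpecialLinearGroup (Fin (n + 2)) (ZMod 2) => (x : Matrix (Fin (n + 2)) (Fin (n + 2)) (ZMod 2))) hde
    have h2 := congrFun (congrFun h1 i.succ) j.succ
    rw [Matrix.mul_apply, Fin.sum_univ_succ, hcol d hd i, zero_mul, zero_add] at h2
    rw [Matrix.mul_apply]
    show ∑ k : Fin (n + 1), (d : Matrix (Fin (n + 2)) (Fin (n + 2)) (ZMod 2)) i.succ k.succ * (e : Matrix (Fin (n + 2)) (Fin (n + 2)) (ZMod 2)) k.succ j.succ = _
    rw [h2, Matrix.one_apply, Matrix.one_apply]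
    simp only [Fin.succ_inj]
  let g : GL (Fin (n + 1)) (ZMod 2) := ⟨(c : Matrix (Fin (n + 2)) (Fin (n + 2)) (ZMod 2)).submatrix Fin.succ Fin.succ,
    ((c⁻¹ : SpecialLinearGroup (Fin (n + 2)) (ZMod 2)) : Matrix (Fin (n + 2)) (Fin (n + 2)) (ZMod 2)).submatrix Fin.succ Fin.succ,
    key c c⁻¹ hc (mul_inv_cancel c), key c⁻¹ c hc' (inv_mul_cancel c)⟩
  have h00 : (c : Matrix (Fin (n + 2)) (Fin (n + 2)) (ZMod 2)) 0 0 = 1 := by
    apply z2_ne
    intro h1
    have h3 : ((c⁻¹ : SpecialLinearGroup (Fin (n + 2)) (ZMod 2)) : Matrix (Fin (n + 2)) (Fin (n + 2)) (ZMod 2)) * (c : Matrix (Fin (n + 2)) (Fin (n + 2)) (ZMod 2)) = 1 :=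
      congrArg (fun x : SpecialLinearGroup (Fin (n + 2)) (ZMod 2) => (x : Matrix (Fin (n + 2)) (Fin (n + 2)) (ZMod 2))) (inv_mul_cancel c)
    have h2 := congrFun (congrFun h3 0) 0
    rw [Matrix.mul_apply, Fin.sum_univ_succ, h1, mul_zero, zero_add,
      Finset.sum_eq_zero (fun k _ => by rw [hcol c hc k, mul_zero]), Matrix.one_apply, if_pos rfl] at h2
    exact zero_ne_one h2
  have hdec : c = Ds n g * Ts (fun j => (c : Matrix (Fin (n + 2)) (Fin (n + 2)) (ZMod 2)) 0 j.succ) := by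
    apply Subtype.ext
    show (c : Matrix (Fin (n + 2)) (Fin (n + 2)) (ZMod 2)) = Dm (g : Matrix _ _ _) * Tm _
    ext i j
    rw [Matrix.mul_apply, Fin.sum_univ_succ]
    refine Fin.cases ?_ (fun i => ?_) i
    · refine Fin.cases ?_ (fun j => ?_) j
      · rw [h00]
        show (1 : ZMod 2) = 1 * 1 + ∑ x : Fin (n + 1), (0 : ZMod 2) * Tm (fun j => (c : Matrix (Fin (n + 2)) (Fin (n + 2)) (ZMod 2)) 0 j.succ) x.succ 0
        rw [Finset.sum_eq_zero (fun x _ => zero_mul _), mul_one, add_zero]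
      · show (c : Matrix (Fin (n + 2)) (Fin (n + 2)) (ZMod 2)) 0 j.succ = 1 * (c : Matrix (Fin (n + 2)) (Fin (n + 2)) (ZMod 2)) 0 j.succ + ∑ x : Fin (n + 1), (0 : ZMod 2) * Tm (fun j => (c : Matrix (Fin (n + 2)) (Fin (n + 2)) (ZMod 2)) 0 j.succ) x.succ j.succ
        rw [Finset.sum_eq_zero (fun x _ => zero_mul _), one_mul, add_zero]
    · refine Fin.cases ?_ (fun j => ?_) j
      · rw [hcol c hc i]
        show (0 : ZMod 2) = 0 * 1 + ∑ x : Fin (n + 1), _ * (1 : Matrix (Fin (n + 2)) (Fin (n + 2)) (ZMod 2)) x.succ 0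
        rw [Finset.sum_eq_zero (fun x _ => by rw [one_succ x 0 rfl, mul_zero]), zero_mul, add_zero]
      · show (c : Matrix (Fin (n + 2)) (Fin (n + 2)) (ZMod 2)) i.succ j.succ = 0 * _ + ∑ x : Fin (n + 1), (c : Matrix (Fin (n + 2)) (Fin (n + 2)) (ZMod 2)) i.succ x.succ * (1 : Matrix (Fin (n + 2)) (Fin (n + 2)) (ZMod 2)) x.succ j.succ
        rw [zero_mul, zero_add, Finset.sum_eq_single j]
        · rw [Matrix.one_apply, if_pos rfl, mul_one]
        · intro b _ hb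
          rw [Matrix.one_apply, if_neg (fun h => hb (Fin.succ_inj.1 h)), mul_zero]
        · intro h; exact absurd (Finset.mem_univ j) h
  refine ⟨Ds n g * Ts (fun j => (c : Matrix (Fin (n + 2)) (Fin (n + 2)) (ZMod 2)) 0 j.succ) * (Ds n g)⁻¹,
    (holSL n).norm _ (Ds_mem g) _ (Ts_mem _), Ds n g, Ds_mem g, ?_⟩
  rw [inv_mul_cancel_right]
  exact hdec

end CfsgLib.Hol28
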