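import Mathlib
import Cfsg.Agent.EqBase
import Cfsg.Agent.LibHolE28

set_option autoImplicit false

/-! Centralisers in two holomorphs of isomorphic elementary abelian groups are isomorphic (helper28). -/

namespace CfsgLib.Hol28

variable {G : Type*} [Group G] {U M : Subgroup G}

theorem Hol.uniq (h : Hol U M) {u u' m m' : G} (hu : u ∈ U) (hu' : u' ∈ U) (hm : m ∈ M) (hm' : m' ∈ M)
    (e : u * m = u' * m') : u = u' ∧ m = m' := by
  have h1 : u'⁻¹ * u = m' * m⁻¹ := by
    rw [eq_mul_inv_iff_mul_eq, mul_assoc, e, inv_mul_cancel_left]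
  have h2 : u'⁻¹ * u ∈ U ⊓ M := Subgroup.mem_inf.2 ⟨U.mul_mem (U.inv_mem hu') hu, h1 ▸ M.mul_mem hm' (M.inv_mem hm)⟩
  rw [h.disj, Subgroup.mem_bot] at h2
  have h3 : u = u' := (inv_mul_eq_one.1 h2).symm
  refine ⟨h3, ?_⟩
  rw [h3] at e
  exact mul_left_cancel e

/-- the affine action of the centraliser -/
theorem Hol.affine {W : Type*} [Group W] (h : Hol U M) {z : G} (hz : z ∈ U)
    (hP : ∀ c, c * z = z * c → ∃ u ∈ U, ∃ m ∈ M, c = u * m) (φ : ↥U ≃* W) :
    ∃ f : ↥(Subgroup.centralizer ({z} : Set G)) →* Equiv.Perm W, Function.Injective f ∧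
      ∀ A : Equiv.Perm W, A ∈ f.range ↔ ∃ (a : W) (σ : W ≃* W), σ (φ ⟨z, hz⟩) = φ ⟨z, hz⟩ ∧ ∀ v, A v = a * σ v := by
  classical
  have hcz : ∀ c : ↥(Subgroup.centralizer ({z} : Set G)), (c : G) * z = z * c := fun c =>
    (Subgroup.mem_centralizer_singleton_iff.1 c.2)
  have hch : ∀ c : ↥(Subgroup.centralizer ({z} : Set G)), ∃ p : G × G, p.1 ∈ U ∧ p.2 ∈ M ∧ (c : G) = p.1 * p.2 := by
    intro c
    obtain ⟨u, hu, m, hm, e⟩ := hP c (hcz c)
    exact ⟨(u, m), hu, hm, e⟩
  choose d hdU hdM hd using hch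
  have hUc : ∀ (u : G) (v : G), u ∈ U → v ∈ U → u * v * u⁻¹ = v := by
    intro u v hu hv
    rw [h.comm hu hv, mul_inv_cancel_right]
  have hconj : ∀ (c : ↥(Subgroup.centralizer ({z} : Set G))) (v : G), v ∈ U → (c : G) * v * (c : G)⁻¹ = (d c).2 * v * (d c).2⁻¹ := by
    intro c v hv
    rw [hd c]
    have : (d c).1 * (d c).2 * v * ((d c).1 * (d c).2)⁻¹ = (d c).1 * ((d c).2 * v * (d c).2⁻¹) * (d c).1⁻¹ := by group
    rw [this, hUc _ _ (hdU c) (h.norm _ (hdM c) _ hv)]
  have hnorm : ∀ (c : ↥(Subgroup.centralizer ({z} : Set G))) (v : G), v ∈ U → (c : G) * v * (c : G)⁻¹ ∈ U := by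
    intro c v hv
    rw [hconj c v hv]
    exact h.norm _ (hdM c) _ hv
  -- decomposition of a product
  have hmul : ∀ c c' : ↥(Subgroup.centralizer ({z} : Set G)), (d (c * c')).1 = (d c).1 * ((c : G) * (d c').1 * (c : G)⁻¹) := by
    intro c c'
    have e1 : ((c * c' : ↥(Subgroup.centralizer ({z} : Set G))) : G) =
        ((d c).1 * ((d c).2 * (d c').1 * (d c).2⁻¹)) * ((d c).2 * (d c').2) := by
      rw [Subgroup.coe_mul]
      nth_rewrite 1 [hd c]
      nth_rewrite 1 [hd c']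
      group
    rw [hconj c _ (hdU c')]
    exact (h.uniq (hdU _) (mul_mem (hdU c) (h.norm _ (hdM c) _ (hdU c'))) (hdM _) (mul_mem (hdM c) (hdM c'))
      ((hd (c * c')).symm.trans e1)).1
  let g : ↥(Subgroup.centralizer ({z} : Set G)) → W → W := fun c v =>
    φ (⟨(d c).1, hdU c⟩ * ⟨(c : G) * (φ.symm v : G) * (c : G)⁻¹, hnorm c _ (φ.symm v).2⟩)
  have hgmul : ∀ c c' v, g (c * c') v = g c (g c' v) := by
    intro c c' v
    change φ _ = φ _
    congr 1
    apply Subtype.ext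
    change (d (c * c')).1 * (((c * c' : ↥(Subgroup.centralizer ({z} : Set G))) : G) * (φ.symm v : G) * ((c * c' : ↥(Subgroup.centralizer ({z} : Set G))) : G)⁻¹) =
      (d c).1 * ((c : G) * ((φ.symm (φ (⟨(d c').1, hdU c'⟩ * ⟨(c' : G) * (φ.symm v : G) * (c' : G)⁻¹, hnorm c' _ (φ.symm v).2⟩)) : ↥U) : G) * (c : G)⁻¹)
    rw [MulEquiv.symm_apply_apply, hmul]
    change _ = (d c).1 * ((c : G) * ((d c').1 * ((c' : G) * (φ.symm v : G) * (c' : G)⁻¹)) * (c : G)⁻¹)
    rw [Subgroup.coe_mul]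
    group
  have hd1 : (d 1).1 = 1 := by
    have := hmul 1 1
    rw [mul_one] at this
    have e : (d 1).1 = (d 1).1 * (d 1).1 := by
      rw [Subgroup.coe_one] at this
      simpa using this
    exact (mul_eq_left.1 e.symm)
  have hg1 : ∀ v, g 1 v = v := by
    intro v
    change φ _ = v
    rw [← MulEquiv.eq_symm_apply]
    apply Subtype.ext
    change (d 1).1 * (((1 : ↥(Subgroup.centralizer ({z} : Set G))) : G) * (φ.symm v : G) * ((1 : ↥(Subgroup.centralizer ({z} : Set G))) : G)⁻¹) = (φ.symm v : G)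
    rw [hd1, Subgroup.coe_one]
    group
  let F : ↥(Subgroup.centralizer ({z} : Set G)) →* Equiv.Perm W :=
    { toFun := fun c =>
        { toFun := g c
          invFun := g c⁻¹
          left_inv := fun v => by rw [← hgmul, inv_mul_cancel, hg1]
          right_inv := fun v => by rw [← hgmul, mul_inv_cancel, hg1] }
      map_one' := Equiv.ext hg1
      map_mul' := fun c c' => Equiv.ext (hgmul c c') }
  have hFg : ∀ c v, F c v = g c v := fun _ _ => rfl
  refine ⟨F, ?_, ?_⟩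
  · rw [injective_iff_map_eq_one]
    intro c hc
    have h1 : ∀ v, g c v = v := fun v => by rw [← hFg, hc]; rfl
    have h2 : ∀ u : ↥U, (d c).1 * ((c : G) * u * (c : G)⁻¹) = u := by
      intro u
      have h3 := h1 (φ u)
      have h4 := congrArg (fun w => ((φ.symm w : ↥U) : G)) h3
      change ((φ.symm (φ _) : ↥U) : G) = ((φ.symm (φ u) : ↥U) : G) at h4
      rw [MulEquiv.symm_apply_apply, MulEquiv.symm_apply_apply] at h4
      exact h4
    have h3 : (d c).1 = 1 := by
      have := h2 1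
      rw [Subgroup.coe_one, mul_one, mul_inv_cancel, mul_one] at this
      exact this
    have h4 : (d c).2 = 1 := by
      apply h.faith _ (hdM c)
      intro u hu
      have := h2 ⟨u, hu⟩
      rw [h3, one_mul, hconj c _ hu] at this
      exact this
    apply Subtype.ext
    rw [hd c, h3, h4, mul_one]
    rfl
  · intro A
    constructor
    · rintro ⟨c, rfl⟩
      let σ0 : ↥U ≃* ↥U := h.act ⟨(d c).2, hdM c⟩
      refine ⟨φ ⟨(d c).1, hdU c⟩, (φ.symm.trans σ0).trans φ, ?_, ?_⟩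
      · change φ (σ0 (φ.symm (φ _))) = _
        rw [MulEquiv.symm_apply_apply]
        congr 1
        apply Subtype.ext
        change (d c).2 * z * (d c).2⁻¹ = z
        rw [← hconj c z hz, hcz c, mul_inv_cancel_right]
      · intro v
        change φ _ = φ _ * φ (σ0 (φ.symm v))
        rw [map_mul]
        congr 2
        apply Subtype.ext
        exact hconj c _ (φ.symm v).2
    · rintro ⟨a, σ, hσz, hA⟩
      obtain ⟨m, hm, hmσ⟩ := h.full ((φ.trans σ).trans φ.symm)
      have hmz : m * z * m⁻¹ = z := by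
        have := hmσ ⟨z, hz⟩
        change ((φ.symm (σ (φ ⟨z, hz⟩)) : ↥U) : G) = _ at this
        rw [hσz, MulEquiv.symm_apply_apply] at this
        exact this.symm
      have hcc : ((φ.symm a : ↥U) : G) * m ∈ Subgroup.centralizer ({z} : Set G) := by
        rw [Subgroup.mem_centralizer_singleton_iff]
        have e1 : m * z = z * m := mul_inv_eq_iff_eq_mul.1 hmz
        rw [mul_assoc, e1, ← mul_assoc, h.comm (φ.symm a).2 hz, mul_assoc]
      refine ⟨⟨_, hcc⟩, ?_⟩
      apply Equiv.ext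
      intro v
      rw [hFg, hA]
      have e2 := h.uniq (hdU ⟨_, hcc⟩) (φ.symm a).2 (hdM ⟨_, hcc⟩) hm (hd ⟨_, hcc⟩).symm
      change φ _ = _
      rw [map_mul]
      congr 1
      · rw [← MulEquiv.eq_symm_apply]
        exact Subtype.ext e2.1
      · rw [← MulEquiv.eq_symm_apply]
        apply Subtype.ext
        change ((φ.symm a : ↥U) : G) * m * (φ.symm v : G) * (((φ.symm a : ↥U) : G) * m)⁻¹ = ((φ.symm (σ v) : ↥U) : G)
        have e3 := hmσ (φ.symm v)
        change ((φ.symm (σ (φ (φ.symm v))) : ↥U) : G) = _ at e3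
        rw [MulEquiv.apply_symm_apply] at e3
        rw [e3]
        have e4 := hUc ((φ.symm a : ↥U) : G) (m * (φ.symm v : G) * m⁻¹) (φ.symm a).2 (h.norm _ hm _ (φ.symm v).2)
        rw [← e4]
        group

theorem Hol.cent_iso {G' : Type*} [Group G'] {U' M' : Subgroup G'} (h : Hol U M) (h' : Hol U' M')
    {z : G} (hz : z ∈ U) {z' : G'} (hz' : z' ∈ U')
    (hP : ∀ c, c * z = z * c → ∃ u ∈ U, ∃ m ∈ M, c = u * m)
    (hP' : ∀ c, c * z' = z' * c → ∃ u ∈ U', ∃ m ∈ M', c = u * m) (φ : ↥U ≃* ↥U') (hφ : φ ⟨z, hz⟩ = ⟨z', hz'⟩) :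
    Nonempty (↥(Subgroup.centralizer ({z} : Set G)) ≃* ↥(Subgroup.centralizer ({z'} : Set G'))) := by
  obtain ⟨f, hf, hfr⟩ := h.affine hz hP φ
  obtain ⟨f', hf', hfr'⟩ := h'.affine hz' hP' (MulEquiv.refl ↥U')
  have e : f.range = f'.range := by
    ext A
    rw [hfr, hfr', hφ]
    rfl
  exact ⟨(MonoidHom.ofInjective hf).trans ((MulEquiv.subgroupCongr e).trans (MonoidHom.ofInjective hf').symm)⟩

/-- elementary abelian 2-groups of the same order with given nontrivial elements -/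
theorem Hol.exists_equiv [Finite G] {G' : Type*} [Group G'] [Finite G'] {U' M' : Subgroup G'} (h : Hol U M) (h' : Hol U' M')
    (hc : Nat.card U = Nat.card U') {z : G} (hz : z ∈ U) (hz1 : z ≠ 1) {z' : G'} (hz' : z' ∈ U') (hz1' : z' ≠ 1) :
    ∃ φ : ↥U ≃* ↥U', φ ⟨z, hz⟩ = ⟨z', hz'⟩ := by
  haveI : Fact (Nat.Prime 2) := ⟨Nat.prime_two⟩
  letI i1 : CommGroup ↥U := { (inferInstance : Group ↥U) with mul_comm := fun a b => Subtype.ext (h.comm a.2 b.2) }
  letI i2 : CommGroup ↥U' := { (inferInstance : Group ↥U') with mul_comm := fun a b => Subtype.ext (h'.comm a.2 b.2) }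
  have h0 : ∀ x : Additive ↥U, 2 • x = 0 := fun x => congrArg Additive.ofMul (by
    have := h.sqU (Additive.toMul x)
    rw [← pow_two] at this
    exact this)
  have h0' : ∀ x : Additive ↥U', 2 • x = 0 := fun x => congrArg Additive.ofMul (by
    have := h'.sqU (Additive.toMul x)
    rw [← pow_two] at this
    exact this)
  letI inst : Module (ZMod 2) (Additive ↥U) := AddCommGroup.zmodModule h0
  letI inst' : Module (ZMod 2) (Additive ↥U') := AddCommGroup.zmodModule h0'
  haveI : Finite (Additive ↥U) := inferInstanceAs (Finite ↥U)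
  haveI : Finite (Additive ↥U') := inferInstanceAs (Finite ↥U')
  haveI : Module.Finite (ZMod 2) (Additive ↥U) := Module.Finite.of_finite
  haveI : Module.Finite (ZMod 2) (Additive ↥U') := Module.Finite.of_finite
  have hfr : Module.finrank (ZMod 2) (Additive ↥U) = Module.finrank (ZMod 2) (Additive ↥U') := by
    have h1 := Module.natCard_eq_pow_finrank (K := ZMod 2) (V := Additive ↥U)
    have h2 := Module.natCard_eq_pow_finrank (K := ZMod 2) (V := Additive ↥U')
    have h3 : Nat.card (Additive ↥U) = Nat.card (Additive ↥U') := hc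
    rw [Nat.card_zmod] at h1 h2
    rw [h1, h2] at h3
    exact Nat.pow_right_injective le_rfl h3
  let L : Additive ↥U ≃ₗ[ZMod 2] Additive ↥U' := LinearEquiv.ofFinrankEq _ _ hfr
  let φ0 : ↥U ≃* ↥U' := MulEquiv.toAdditive.symm L.toAddEquiv
  have hne : ((φ0 ⟨z, hz⟩ : ↥U') : G') ≠ 1 := by
    intro e
    have e1 : φ0 ⟨z, hz⟩ = 1 := Subtype.ext e
    rw [map_eq_one_iff φ0 φ0.injective] at e1
    exact hz1 (congrArg Subtype.val e1)
  obtain ⟨m, hm, hmz⟩ := h'.trans (φ0 ⟨z, hz⟩).2 hne hz' hz1'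
  exact ⟨φ0.trans (h'.act ⟨m, hm⟩), Subtype.ext hmz⟩

end CfsgLib.Hol28
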