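import Mathlib
import Cfsg.Agent.LibCoprime2

/-!
# Homocyclic Sylow 2-subgroups of rank 2: S0945, S0946 (helper17)
-/

set_option autoImplicit false
set_option linter.unusedSectionVars false
set_option linter.style.haveILetI false
set_option linter.unusedSimpArgs false

namespace CfsgLib.HomoSyl

theorem two_mul_eq_zero_iff {m : ℕ} (hm : 1 ≤ m) (a : ZMod (2 ^ m)) :
    2 * a = 0 ↔ a = 0 ∨ a = ((2 ^ (m - 1) : ℕ) : ZMod (2 ^ m)) := by
  have h2m : 2 ^ m = 2 * 2 ^ (m - 1) := by
    rw [← pow_succ']; congr 1; omega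
  constructor
  · intro h
    haveI : NeZero (2 ^ m) := ⟨by positivity⟩
    have h1 : ((2 * a.val : ℕ) : ZMod (2 ^ m)) = 0 := by
      push_cast
      rw [ZMod.natCast_zmod_val]
      exact h
    rw [ZMod.natCast_eq_zero_iff] at h1
    have h2 : 2 ^ (m - 1) ∣ a.val := Nat.dvd_of_mul_dvd_mul_left (by norm_num) (h2m ▸ h1 :
      2 * 2 ^ (m - 1) ∣ 2 * a.val)
    obtain ⟨k, hk⟩ := h2
    have h3 : a.val < 2 ^ m := ZMod.val_lt a
    have hk2 : k < 2 := by
      by_contra hk2
      push Not at hk2
      have h4 : 2 ^ (m - 1) * 2 ≤ 2 ^ (m - 1) * k := Nat.mul_le_mul_left _ hk2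
      rw [← hk] at h4
      omega
    have h5 : a = ((a.val : ℕ) : ZMod (2 ^ m)) := (ZMod.natCast_zmod_val a).symm
    interval_cases k
    · left
      rw [h5, hk, mul_zero, Nat.cast_zero]
    · right
      rw [h5, hk, mul_one]
  · rintro (h | h)
    · rw [h, mul_zero]
    · rw [h]
      have h1 : ((2 * 2 ^ (m - 1) : ℕ) : ZMod (2 ^ m)) = 0 := by
        rw [← h2m]; exact ZMod.natCast_self _
      push_cast at h1 ⊢
      exact h1

theorem half_ne_zero {m : ℕ} (hm : 1 ≤ m) : ((2 ^ (m - 1) : ℕ) : ZMod (2 ^ m)) ≠ 0 := by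
  intro h
  rw [ZMod.natCast_eq_zero_iff] at h
  have h1 := Nat.le_of_dvd (by positivity) h
  have h2 : 2 ^ (m - 1) < 2 ^ m := Nat.pow_lt_pow_right (by norm_num) (by omega)
  omega

variable {G : Type*} [Group G] [Finite G]

/-- the involutions of `P` -/
abbrev Inv (P : Subgroup G) : Type _ := {v : G // v ∈ P ∧ orderOf v = 2}

theorem card_inv {P : Subgroup G} {m : ℕ} (hm : 1 ≤ m)
    (e : P ≃* Multiplicative (ZMod (2 ^ m) × ZMod (2 ^ m))) : Nat.card (Inv P) = 3 := by
  classical
  set h : ZMod (2 ^ m) := ((2 ^ (m - 1) : ℕ) : ZMod (2 ^ m)) with hh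
  have hh0 : h ≠ 0 := half_ne_zero hm
  set S : Finset (ZMod (2 ^ m) × ZMod (2 ^ m)) := {(0, h), (h, 0), (h, h)} with hS
  have hScard : S.card = 3 := by
    rw [hS]
    rw [Finset.card_insert_of_notMem, Finset.card_insert_of_notMem, Finset.card_singleton]
    · simp [hh0.symm]
    · simp [hh0, hh0.symm]
  have hmem : ∀ x : ZMod (2 ^ m) × ZMod (2 ^ m), x ∈ S ↔ (2 • x = 0 ∧ x ≠ 0) := by
    rintro ⟨a, b⟩
    have h1 := two_mul_eq_zero_iff hm a
    have h2 := two_mul_eq_zero_iff hm b
    rw [← hh] at h1 h2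
    simp only [hS, Finset.mem_insert, Finset.mem_singleton, Prod.mk.injEq, Prod.smul_mk,
      nsmul_eq_mul, Nat.cast_ofNat, ne_eq, Prod.mk_eq_zero, h1, h2]
    constructor
    · rintro (⟨ha, hb⟩ | ⟨ha, hb⟩ | ⟨ha, hb⟩)
      · exact ⟨⟨Or.inl ha, Or.inr hb⟩, fun h' => hh0 (hb ▸ h'.2)⟩
      · exact ⟨⟨Or.inr ha, Or.inl hb⟩, fun h' => hh0 (ha ▸ h'.1)⟩
      · exact ⟨⟨Or.inr ha, Or.inr hb⟩, fun h' => hh0 (hb ▸ h'.2)⟩
    · rintro ⟨⟨ha | ha, hb | hb⟩, hne⟩
      · exact absurd ⟨ha, hb⟩ hne
      · exact Or.inl ⟨ha, hb⟩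
      · exact Or.inr (Or.inl ⟨ha, hb⟩)
      · exact Or.inr (Or.inr ⟨ha, hb⟩)
  let F : Inv P ≃ {x // x ∈ S} :=
    { toFun := fun v => ⟨Multiplicative.toAdd (e ⟨v.1, v.2.1⟩), by
        rw [hmem]
        have hv2 : (⟨v.1, v.2.1⟩ : P) ^ 2 = 1 := by
          apply Subtype.ext
          push_cast
          have h3 := pow_orderOf_eq_one v.1
          rwa [v.2.2] at h3
        have hv1 : (⟨v.1, v.2.1⟩ : P) ≠ 1 := by
          intro h'
          have h'' : v.1 = 1 := congrArg Subtype.val h'
          have := v.2.2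
          rw [h'', orderOf_one] at this
          omega
        constructor
        · rw [← toAdd_pow, ← map_pow, hv2, map_one, toAdd_one]
        · intro h'
          apply hv1
          rw [← toAdd_one] at h'
          have h3 : e ⟨v.1, v.2.1⟩ = 1 := Multiplicative.toAdd.injective h'
          rw [← map_one e] at h3
          exact e.injective h3⟩
      invFun := fun x => ⟨(e.symm (Multiplicative.ofAdd x.1) : P), (e.symm (Multiplicative.ofAdd x.1)).2, by
        obtain ⟨h1, h2⟩ := (hmem x.1).mp x.2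
        rw [Subgroup.orderOf_coe]
        haveI : Fact (Nat.Prime 2) := ⟨Nat.prime_two⟩
        apply orderOf_eq_prime
        · rw [← map_pow, ← ofAdd_nsmul, h1, ofAdd_zero, map_one]
        · intro h'
          apply h2
          have h3 : Multiplicative.ofAdd x.1 = 1 := by
            rw [← map_one e.symm] at h'
            exact e.symm.injective h'
          rw [← ofAdd_zero] at h3
          exact Multiplicative.ofAdd.injective h3⟩
      left_inv := by
        intro v
        apply Subtype.ext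
        simp
      right_inv := by
        intro x
        apply Subtype.ext
        simp }
  rw [Nat.card_congr F, Nat.card_eq_fintype_card, Fintype.card_coe, hScard]

instance invAction (P : Subgroup G) : MulAction (Subgroup.normalizer (P : Set G)) (Inv P) where
  smul n v := ⟨n.1 * v.1 * n.1⁻¹, (Subgroup.mem_normalizer_iff.mp n.2 v.1).mp v.2.1, by
    have h1 : n.1 * v.1 * n.1⁻¹ = MulAut.conj n.1 v.1 := rfl
    rw [h1]
    exact (orderOf_injective (MulAut.conj n.1).toMonoidHom (MulAut.conj n.1).injective v.1).trans v.2.2⟩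
  one_smul v := by
    apply Subtype.ext
    change (1 : G) * v.1 * (1 : G)⁻¹ = v.1
    simp
  mul_smul a b v := by
    apply Subtype.ext
    change (a.1 * b.1) * v.1 * (a.1 * b.1)⁻¹ = a.1 * (b.1 * v.1 * b.1⁻¹) * a.1⁻¹
    group

theorem smul_val (P : Subgroup G) (n : Subgroup.normalizer (P : Set G)) (v : Inv P) :
    (n • v).1 = n.1 * v.1 * n.1⁻¹ := rfl

/-- an element of the normalizer of an abelian Sylow 2-subgroup centralizing all involutions of it
centralizes it -/
theorem mem_centralizer (P : Sylow 2 G) (hab : ∀ a ∈ (P : Subgroup G), ∀ b ∈ (P : Subgroup G), a * b = b * a)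
    {x : G} (hx : x ∈ Subgroup.normalizer (P : Set G))
    (hinv : ∀ v ∈ (P : Subgroup G), orderOf v = 2 → x * v = v * x) :
    x ∈ Subgroup.centralizer (P : Set G) := by
  haveI : Fact (Nat.Prime 2) := ⟨Nat.prime_two⟩
  haveI : IsMulCommutative (P : Subgroup G) :=
    ⟨⟨fun a b => Subtype.ext (hab a.1 a.2 b.1 b.2)⟩⟩
  obtain ⟨a, m, hm, ham⟩ := Nat.exists_eq_pow_mul_and_not_dvd (orderOf_pos x).ne' 2 (by norm_num)
  -- 2-part in P
  have h1 : x ^ m ∈ (P : Subgroup G) := by
    have h2 : IsPGroup 2 (Subgroup.zpowers (x ^ m)) := by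
      apply IsPGroup.of_card (n := a)
      rw [Nat.card_zpowers, orderOf_pow_of_dvd (by rintro rfl; exact hm (dvd_zero _))
        (Dvd.intro_left _ ham.symm), ham, Nat.mul_div_cancel]
      apply Nat.pos_of_ne_zero; rintro rfl; exact hm (dvd_zero _)
    have h3 := h2.inf_normalizer_sylow P
    have h4 : x ^ m ∈ Subgroup.zpowers (x ^ m) ⊓ Subgroup.normalizer (P : Set G) :=
      ⟨Subgroup.mem_zpowers _, Subgroup.pow_mem _ hx m⟩
    have h5 : x ^ m ∈ Subgroup.zpowers (x ^ m) ⊓ (P : Subgroup G) := h3 ▸ h4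
    exact h5.2
  have h2 : x ^ m ∈ Subgroup.centralizer (P : Set G) := by
    rw [Subgroup.mem_centralizer_iff]
    intro v hv
    exact hab v hv _ h1
  have h3 : x ^ (2 ^ a) ∈ Subgroup.centralizer (P : Set G) := by
    have h4 : Subgroup.zpowers (x ^ (2 ^ a)) ≤ Subgroup.centralizer (P : Set G) := by
      apply CfsgLib.Coprime2.abelian_trivial_of_prime_order (V := (P : Subgroup G))
      · rw [Subgroup.zpowers_le]; exact Subgroup.pow_mem _ hx _
      · rw [Nat.card_zpowers, orderOf_pow_of_dvd (by positivity) (Dvd.intro _ ham.symm), ham,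
          Nat.mul_div_cancel_left _ (by positivity)]
        obtain ⟨k, hk⟩ := IsPGroup.iff_card.mp P.2
        rw [hk]
        apply Nat.Coprime.pow_right
        exact ((Nat.Prime.coprime_iff_not_dvd Nat.prime_two).mpr hm).symm
      · intro v hv hvp b hb
        have hv2 : orderOf v = 2 := by
          obtain ⟨k, hk⟩ := IsPGroup.iff_orderOf.mp P.2 ⟨v, hv⟩
          rw [Subgroup.orderOf_mk] at hk
          rw [hk] at hvp ⊢
          exact ((Nat.Prime.eq_one_or_self_of_dvd hvp 2 (by
            have : k ≠ 0 := by rintro rfl; exact absurd hvp (by norm_num)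
            exact dvd_pow_self 2 this)).resolve_left (by norm_num)).symm
        obtain ⟨k, hk⟩ := Subgroup.mem_zpowers_iff.mp hb
        rw [← hk]
        have h6 : Commute x v := hinv v hv hv2
        exact ((h6.pow_left _).zpow_left k)
    exact h4 (Subgroup.mem_zpowers _)
  have hcop : Nat.Coprime m (2 ^ a) := Nat.Coprime.pow_right _
    ((Nat.Prime.coprime_iff_not_dvd Nat.prime_two).mpr hm).symm
  have h4 : ∃ u v : ℤ, u * m + v * (2 ^ a : ℕ) = 1 := by
    obtain ⟨u, v, huv⟩ := Nat.isCoprime_iff_coprime.mpr hcop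
    exact ⟨u, v, huv⟩
  obtain ⟨u, v, huv⟩ := h4
  have h5 : x = (x ^ m) ^ u * (x ^ (2 ^ a)) ^ v := by
    rw [← zpow_natCast, ← zpow_natCast, ← zpow_mul, ← zpow_mul, ← zpow_add]
    rw [mul_comm (m : ℤ) u, mul_comm ((2 ^ a : ℕ) : ℤ) v, huv, zpow_one]
  rw [h5]
  exact Subgroup.mul_mem _ (Subgroup.zpow_mem _ h2 _) (Subgroup.zpow_mem _ h3 _)

theorem comm_of_equiv {P : Subgroup G} {m : ℕ}
    (e : P ≃* Multiplicative (ZMod (2 ^ m) × ZMod (2 ^ m))) :
    ∀ a ∈ P, ∀ b ∈ P, a * b = b * a := by
  intro a ha b hb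
  have h1 : (⟨a, ha⟩ : P) * ⟨b, hb⟩ = ⟨b, hb⟩ * ⟨a, ha⟩ := by
    apply e.injective
    rw [map_mul, map_mul, mul_comm]
  exact congrArg Subtype.val h1

theorem ker_eq (P : Sylow 2 G) (hab : ∀ a ∈ (P : Subgroup G), ∀ b ∈ (P : Subgroup G), a * b = b * a) :
    (MulAction.toPermHom (Subgroup.normalizer ((P : Subgroup G) : Set G)) (Inv (P : Subgroup G))).ker =
      (Subgroup.centralizer (P : Set G)).subgroupOf (Subgroup.normalizer (P : Set G)) := by
  ext x
  rw [MonoidHom.mem_ker, Subgroup.mem_subgroupOf]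
  constructor
  · intro h
    apply mem_centralizer P hab x.2
    intro v hv hv2
    have h1 := congrArg Subtype.val (Equiv.congr_fun h (⟨v, hv, hv2⟩ : Inv (P : Subgroup G)))
    have h2 : x.1 * v * x.1⁻¹ = v := h1
    rwa [mul_inv_eq_iff_eq_mul] at h2
  · intro h
    ext v
    have h1 : (x.1 * v.1 * x.1⁻¹) = v.1 := by
      rw [mul_inv_eq_iff_eq_mul]
      exact ((Subgroup.mem_centralizer_iff.mp h) v.1 v.2.1).symm
    exact h1

theorem relIndex_cases (P : Sylow 2 G) {m : ℕ} (hm : 1 ≤ m)
    (e : (P : Subgroup G) ≃* Multiplicative (ZMod (2 ^ m) × ZMod (2 ^ m))) :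
    (Subgroup.centralizer (P : Set G)).relIndex (Subgroup.normalizer (P : Set G)) = 1 ∨
    (Subgroup.centralizer (P : Set G)).relIndex (Subgroup.normalizer (P : Set G)) = 3 := by
  haveI : Fact (Nat.Prime 2) := ⟨Nat.prime_two⟩
  have hab := comm_of_equiv e
  have h1 : (Subgroup.centralizer (P : Set G)).relIndex (Subgroup.normalizer (P : Set G)) ∣ 6 := by
    have h2 : (Subgroup.centralizer (P : Set G)).relIndex (Subgroup.normalizer (P : Set G)) =
      Nat.card (MulAction.toPermHom (Subgroup.normalizer ((P : Subgroup G) : Set G)) (Inv (P : Subgroup G))).range := by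
      rw [Subgroup.relIndex, ← ker_eq P hab, Subgroup.index_ker]
    rw [h2]
    have h3 : Nat.card (Equiv.Perm (Inv (P : Subgroup G))) = 6 := by
      rw [Nat.card_perm, card_inv hm e]; rfl
    rw [← h3]
    exact Subgroup.card_subgroup_dvd_card _
  have h2 : ¬ 2 ∣ (Subgroup.centralizer (P : Set G)).relIndex (Subgroup.normalizer (P : Set G)) := by
    intro h
    have h3 : (P : Subgroup G) ≤ Subgroup.centralizer (P : Set G) := by
      intro a ha
      rw [Subgroup.mem_centralizer_iff]
      intro b hb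
      exact hab b hb a ha
    have h4 : (Subgroup.centralizer (P : Set G)).relIndex (Subgroup.normalizer (P : Set G)) ∣
        (P : Subgroup G).index :=
      (Subgroup.relIndex_dvd_index_of_le (Subgroup.centralizer_le_normalizer _)).trans
        (Subgroup.index_dvd_of_le h3)
    exact P.not_dvd_index (h.trans h4)
  have h3 : (Subgroup.centralizer (P : Set G)).relIndex (Subgroup.normalizer (P : Set G)) ≤ 6 :=
    Nat.le_of_dvd (by norm_num) h1
  set k := (Subgroup.centralizer (P : Set G)).relIndex (Subgroup.normalizer (P : Set G))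
  interval_cases k
  all_goals first | omega | (exfalso; revert h1; decide) | simp

/-- S0945 -/
theorem s0945 (P : Sylow 2 G) {m : ℕ} (hm : 1 ≤ m)
    (e : (P : Subgroup G) ≃* Multiplicative (ZMod (2 ^ m) × ZMod (2 ^ m)))
    (h : (Subgroup.centralizer (P : Set G)).relIndex (Subgroup.normalizer (P : Set G)) ≠ 1)
    {z : G} (hz : z ∈ (P : Subgroup G)) (hz1 : z ≠ 1) :
    Subgroup.centralizer ({z} : Set G) ⊓ Subgroup.normalizer (P : Set G) =
      Subgroup.centralizer (P : Set G) := by
  classical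
  haveI : Fact (Nat.Prime 2) := ⟨Nat.prime_two⟩
  haveI : Fact (Nat.Prime 3) := ⟨Nat.prime_three⟩
  have hab := comm_of_equiv e
  have h3 := (relIndex_cases P hm e).resolve_left h
  apply le_antisymm
  · rintro x ⟨hxz, hxN⟩
    -- an involution in ⟨z⟩
    obtain ⟨k, hk⟩ := IsPGroup.iff_orderOf.mp P.2 ⟨z, hz⟩
    rw [Subgroup.orderOf_mk] at hk
    have hk0 : k ≠ 0 := by
      rintro rfl
      rw [pow_zero, orderOf_eq_one_iff] at hk
      exact hz1 hk
    set v : G := z ^ (2 ^ (k - 1)) with hv
    have hv2 : orderOf v = 2 := by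
      rw [hv, orderOf_pow_of_dvd (by positivity) (by rw [hk]; exact pow_dvd_pow _ (by omega)), hk,
        Nat.pow_div (by omega) (by norm_num)]
      have : k - (k - 1) = 1 := by omega
      rw [this, pow_one]
    have hvP : v ∈ (P : Subgroup G) := Subgroup.pow_mem _ hz _
    have hxv : x * v = v * x := by
      have h4 : z * x = x * z := Subgroup.mem_centralizer_iff.mp hxz z rfl
      have h5 : Commute x z := h4.symm
      exact (h5.pow_right _)
    haveI : Fintype (Inv (P : Subgroup G)) := Fintype.ofFinite _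
    set f := MulAction.toPermHom (Subgroup.normalizer ((P : Subgroup G) : Set G)) (Inv (P : Subgroup G)) with hf
    have hcard3 : Fintype.card (Inv (P : Subgroup G)) = 3 := by
      rw [← Nat.card_eq_fintype_card]; exact card_inv hm e
    have hf3 : (f ⟨x, hxN⟩) ^ 3 = 1 := by
      have h4 : Nat.card f.range = 3 := by
        rw [← h3, Subgroup.relIndex, ← ker_eq P hab, Subgroup.index_ker]
      have h5 : (⟨f ⟨x, hxN⟩, ⟨⟨x, hxN⟩, rfl⟩⟩ : f.range) ^ (Nat.card f.range) = 1 := pow_card_eq_one'
      rw [h4] at h5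
      have := congrArg Subtype.val h5
      simpa using this
    set fx : Function.End (Inv (P : Subgroup G)) := fun w => f ⟨x, hxN⟩ w with hfx
    have hfix : Function.fixedPoints (f ⟨x, hxN⟩) = Set.univ := by
      change Function.fixedPoints fx = Set.univ
      have h4 : Fintype.card (Inv (P : Subgroup G)) ≡
          Fintype.card (Function.fixedPoints fx) [MOD 3] := by
        apply Equiv.Perm.card_fixedPoints_modEq (n := 1)
        rw [pow_one]
        funext w
        have h5 := Equiv.congr_fun hf3 w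
        simp only [pow_succ, pow_zero, one_mul] at h5 ⊢
        exact h5
      rw [hcard3] at h4
      have h5 : (⟨v, hvP, hv2⟩ : Inv (P : Subgroup G)) ∈
          Function.fixedPoints fx := by
        apply Subtype.ext
        change x * v * x⁻¹ = v
        rw [mul_inv_eq_iff_eq_mul, hxv]
      have h6 : 0 < Fintype.card (Function.fixedPoints fx) :=
        Fintype.card_pos_iff.mpr ⟨⟨_, h5⟩⟩
      have h7 : Fintype.card (Function.fixedPoints fx) ≤ 3 := by
        rw [← hcard3]
        exact Fintype.card_subtype_le _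
      have h8 : Fintype.card (Function.fixedPoints fx) = 3 := by
        have h9 : 3 % 3 = (Fintype.card (Function.fixedPoints fx)) % 3 := h4
        omega
      apply (Set.eq_univ_iff_forall).mpr
      intro w
      by_contra hw
      have h9 : Fintype.card (Function.fixedPoints fx) <
          Fintype.card (Inv (P : Subgroup G)) := Fintype.card_subtype_lt hw
      rw [h8, hcard3] at h9
      exact lt_irrefl _ h9
    apply mem_centralizer P hab hxN
    intro w hw hw2
    have h4 : (⟨w, hw, hw2⟩ : Inv (P : Subgroup G)) ∈ Function.fixedPoints (f ⟨x, hxN⟩) := by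
      rw [hfix]; trivial
    have h5 := congrArg Subtype.val h4
    have h6 : x * w * x⁻¹ = w := h5
    rwa [mul_inv_eq_iff_eq_mul] at h6
  · refine le_inf ?_ (Subgroup.centralizer_le_normalizer _)
    apply Subgroup.centralizer_le
    intro w hw
    rw [Set.mem_singleton_iff.mp hw]
    exact hz

/-- the involutions of `P` are conjugate in the normalizer in the nontrivial case -/
theorem inv_conj (P : Sylow 2 G) {m : ℕ} (hm : 1 ≤ m)
    (e : (P : Subgroup G) ≃* Multiplicative (ZMod (2 ^ m) × ZMod (2 ^ m)))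
    (h : (Subgroup.centralizer (P : Set G)).relIndex (Subgroup.normalizer (P : Set G)) ≠ 1)
    {v w : G} (hv : v ∈ (P : Subgroup G)) (hv2 : orderOf v = 2) (hw : w ∈ (P : Subgroup G))
    (hw2 : orderOf w = 2) : ∃ n ∈ Subgroup.normalizer (P : Set G), n * v * n⁻¹ = w := by
  classical
  have hab := comm_of_equiv e
  have h3 := (relIndex_cases P hm e).resolve_left h
  set V : Inv (P : Subgroup G) := ⟨v, hv, hv2⟩ with hV
  set W : Inv (P : Subgroup G) := ⟨w, hw, hw2⟩ with hW
  have hst : (MulAction.stabilizer (Subgroup.normalizer ((P : Subgroup G) : Set G)) V).index = 3 := by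
    have h4 : MulAction.stabilizer (Subgroup.normalizer ((P : Subgroup G) : Set G)) V =
        (Subgroup.centralizer (P : Set G)).subgroupOf (Subgroup.normalizer (P : Set G)) := by
      ext x
      rw [MulAction.mem_stabilizer_iff, Subgroup.mem_subgroupOf]
      rw [← s0945 P hm e h hv (by rintro rfl; rw [orderOf_one] at hv2; omega)]
      constructor
      · intro h5
        have h6 : x.1 * v * x.1⁻¹ = v := congrArg Subtype.val h5
        refine ⟨?_, x.2⟩
        change (x : G) ∈ Subgroup.centralizer ({v} : Set G)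
        rw [Subgroup.mem_centralizer_iff]
        intro y hy
        rw [Set.mem_singleton_iff.mp hy]
        rw [mul_inv_eq_iff_eq_mul] at h6
        exact h6.symm
      · rintro ⟨h5, _⟩
        apply Subtype.ext
        change x.1 * v * x.1⁻¹ = v
        rw [mul_inv_eq_iff_eq_mul]
        exact (Subgroup.mem_centralizer_iff.mp h5 v rfl).symm
    rw [h4]
    exact h3
  haveI : Fintype (Inv (P : Subgroup G)) := Fintype.ofFinite _
  have horb : MulAction.orbit (Subgroup.normalizer ((P : Subgroup G) : Set G)) V = Set.univ := by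
    rw [MulAction.index_stabilizer] at hst
    apply Set.eq_of_subset_of_ncard_le (Set.subset_univ _)
    rw [Set.ncard_univ, card_inv hm e, hst]
  have h4 : W ∈ MulAction.orbit (Subgroup.normalizer ((P : Subgroup G) : Set G)) V := by
    rw [horb]; trivial
  obtain ⟨n, hn⟩ := h4
  exact ⟨n.1, n.2, congrArg Subtype.val hn⟩

/-- S0946 -/
theorem s0946 (P : Sylow 2 G) {m : ℕ} (hm : 1 ≤ m)
    (e : (P : Subgroup G) ≃* Multiplicative (ZMod (2 ^ m) × ZMod (2 ^ m))) :
    (∃ N : Subgroup G, N.Normal ∧ Subgroup.IsComplement' N (P : Subgroup G)) ∨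
      ∀ s t : G, orderOf s = 2 → orderOf t = 2 → IsConj s t := by
  haveI : Fact (Nat.Prime 2) := ⟨Nat.prime_two⟩
  by_cases h : (Subgroup.centralizer (P : Set G)).relIndex (Subgroup.normalizer (P : Set G)) = 1
  · left
    have h1 : Subgroup.normalizer ((P : Subgroup G) : Set G) ≤ Subgroup.centralizer ((P : Subgroup G) : Set G) :=
      Subgroup.relIndex_eq_one.mp h
    refine ⟨_, inferInstance, MonoidHom.ker_transferSylow_isComplement' P h1⟩
  · right
    have key : ∀ s : G, orderOf s = 2 → ∃ c : G, c * s * c⁻¹ ∈ (P : Subgroup G) := by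
      intro s hs
      have h2 : IsPGroup 2 (Subgroup.zpowers s) := by
        apply IsPGroup.of_card (n := 1)
        rw [Nat.card_zpowers, hs, pow_one]
      obtain ⟨Q, hQ⟩ := h2.exists_le_sylow
      obtain ⟨c, hc⟩ := MulAction.exists_smul_eq G Q P
      refine ⟨c, ?_⟩
      rw [← hc]
      have h3 : s ∈ (Q : Subgroup G) := hQ (Subgroup.mem_zpowers s)
      rw [Sylow.coe_subgroup_smul]
      exact Subgroup.smul_mem_pointwise_smul _ _ _ h3
    intro s t hs ht
    obtain ⟨c, hc⟩ := key s hs
    obtain ⟨d, hd⟩ := key t ht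
    have hs' : orderOf (c * s * c⁻¹) = 2 := by
      have h1 : c * s * c⁻¹ = MulAut.conj c s := rfl
      rw [h1]
      exact (orderOf_injective (MulAut.conj c).toMonoidHom (MulAut.conj c).injective s).trans hs
    have ht' : orderOf (d * t * d⁻¹) = 2 := by
      have h1 : d * t * d⁻¹ = MulAut.conj d t := rfl
      rw [h1]
      exact (orderOf_injective (MulAut.conj d).toMonoidHom (MulAut.conj d).injective t).trans ht
    obtain ⟨n, _, hn⟩ := inv_conj P hm e h hc hs' hd ht'
    have h1 : IsConj s (c * s * c⁻¹) := isConj_iff.mpr ⟨c, rfl⟩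
    have h2 : IsConj (c * s * c⁻¹) (d * t * d⁻¹) := isConj_iff.mpr ⟨n, hn⟩
    have h3 : IsConj t (d * t * d⁻¹) := isConj_iff.mpr ⟨d, rfl⟩
    exact (h1.trans h2).trans h3.symm

end CfsgLib.HomoSyl
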