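import Cfsg.Agent.LibInv2aH13

set_option autoImplicit false

/-! Involutions in characteristic two: conjugacy in `SL` (seat helper13). -/

namespace CfsgLib.Inv2

open Module LinearMap Submodule

section lin
variable {F V : Type*} [Field F] [AddCommGroup V] [Module F V]

theorem toLin_diagonal {ι : Type*} [Fintype ι] [DecidableEq ι] (b : Basis ι F V) (w : ι → F) (j : ι) :
    Matrix.toLin b b (Matrix.diagonal w) (b j) = w j • b j := by
  rw [Matrix.toLin_self, Finset.sum_eq_single j]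
  · rw [Matrix.diagonal_apply_eq]
  · intro i _ hij
    rw [Matrix.diagonal_apply_ne _ hij, zero_smul]
  · intro h; exact absurd (Finset.mem_univ _) h

theorem prod_aux {r k : ℕ} (i0 : Fin r) (c : F) :
    ∏ j, (Sum.elim (fun i => if i = i0 then c else 1) (Sum.elim (fun i => if i = i0 then c else 1) fun _ => 1) :
      Fin r ⊕ (Fin r ⊕ Fin k) → F) j = c * c := by
  rw [Fintype.prod_sum_type, Fintype.prod_sum_type]
  simp

theorem comm_of_bases (N N' : V →ₗ[F] V) {r k : ℕ} (b1 b2 : Basis (Fin r ⊕ (Fin r ⊕ Fin k)) F V)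
    (h11 : ∀ i, N (b1 (.inl i)) = b1 (.inr (.inl i))) (h12 : ∀ j, N (b1 (.inr j)) = 0)
    (h21 : ∀ i, N' (b2 (.inl i)) = b2 (.inr (.inl i))) (h22 : ∀ j, N' (b2 (.inr j)) = 0)
    (f : V →ₗ[F] V) (w : Fin r → F) (v : Fin k → F)
    (h1 : ∀ i, f (b1 (.inl i)) = w i • b2 (.inl i)) (h2 : ∀ i, f (b1 (.inr (.inl i))) = w i • b2 (.inr (.inl i)))
    (h3 : ∀ i, f (b1 (.inr (.inr i))) = v i • b2 (.inr (.inr i))) (x : V) : f (N x) = N' (f x) := by
  have : f.comp N = N'.comp f := by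
    apply b1.ext
    rintro (i | i | i)
    · rw [LinearMap.comp_apply, LinearMap.comp_apply, h11, h1, h2, map_smul, h21]
    · rw [LinearMap.comp_apply, LinearMap.comp_apply, h12, h2, map_smul, h22, map_zero, smul_zero]
    · rw [LinearMap.comp_apply, LinearMap.comp_apply, h12, h3, map_smul, h22, map_zero, smul_zero]
  exact LinearMap.congr_fun this x

theorem exists_comm_of_bases (hsq : ∀ x : F, IsSquare x) (N N' : V →ₗ[F] V) {r k : ℕ} (i0 : Fin r) (b1 b2 : Basis (Fin r ⊕ (Fin r ⊕ Fin k)) F V)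
    (h11 : ∀ i, N (b1 (.inl i)) = b1 (.inr (.inl i))) (h12 : ∀ j, N (b1 (.inr j)) = 0)
    (h21 : ∀ i, N' (b2 (.inl i)) = b2 (.inr (.inl i))) (h22 : ∀ j, N' (b2 (.inr j)) = 0) :
    ∃ f : V →ₗ[F] V, LinearMap.det f = 1 ∧ ∀ x, f (N x) = N' (f x) := by
  let e := b1.equiv b2 (Equiv.refl _)
  have he : ∀ j, e (b1 j) = b2 j := fun j => by rw [Basis.equiv_apply]; rfl
  have hd : LinearMap.det (e : V →ₗ[F] V) ≠ 0 := (LinearEquiv.isUnit_det' e).ne_zero
  obtain ⟨c, hc⟩ : IsSquare (LinearMap.det (e : V →ₗ[F] V))⁻¹ := hsq _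
  let w : Fin r → F := fun i => if i = i0 then c else 1
  let D := Matrix.toLin b2 b2 (Matrix.diagonal (Sum.elim w (Sum.elim w fun _ => 1)))
  have hD : ∀ j, D (b2 j) = (Sum.elim w (Sum.elim w fun _ => (1 : F)) : Fin r ⊕ (Fin r ⊕ Fin k) → F) j • b2 j := fun j => toLin_diagonal _ _ j
  have hdet : LinearMap.det D = c * c := by
    rw [LinearMap.det_toLin, Matrix.det_diagonal]
    exact prod_aux i0 c
  refine ⟨D.comp (e : V →ₗ[F] V), ?_, comm_of_bases N N' b1 b2 h11 h12 h21 h22 _ w (fun _ => 1) ?_ ?_ ?_⟩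
  · rw [LinearMap.det_comp, hdet, ← hc, inv_mul_cancel₀ hd]
  · intro i
    show D (e _) = _
    rw [he, hD]; rfl
  · intro i
    show D (e _) = _
    rw [he, hD]; rfl
  · intro i
    show D (e _) = _
    rw [he, hD]; rfl

theorem exists_comm [FiniteDimensional F V] (hsq : ∀ x : F, IsSquare x) (N N' : V →ₗ[F] V) (hN : ∀ x, N (N x) = 0) (hN' : ∀ x, N' (N' x) = 0)
    (hr : finrank F (range N) = finrank F (range N')) (h0 : 0 < finrank F (range N)) :
    ∃ f : V →ₗ[F] V, LinearMap.det f = 1 ∧ ∀ x, f (N x) = N' (f x) := by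
  obtain ⟨b1, h11, h12⟩ := exists_adapted N hN rfl
  obtain ⟨b2, h21, h22⟩ := exists_adapted N' hN' hr.symm
  exact exists_comm_of_bases hsq N N' ⟨0, h0⟩ b1 b2 h11 h12 h21 h22

end lin

end CfsgLib.Inv2
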