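import Cfsg.Agent.LibInv2pH13

set_option autoImplicit false

/-! Witt index of the minus form (seat helper13). -/

namespace CfsgLib.Inv2

open Module LinearMap Submodule Cfsg.Agent.H22

section minus
variable {F : Type*} [Field F] {k : ℕ} (c d : F)

/-- the embedding of the `y` coordinates -/
def yEmb (F : Type*) [Field F] (k : ℕ) : (Fin k → F) →ₗ[F] ((Fin k ⊕ Fin k) ⊕ Fin 2 → F) where
  toFun y := Sum.elim (Sum.elim 0 y) 0
  map_add' x y := by
    ext ((i | i) | i) <;> simp
  map_smul' a y := by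
    ext ((i | i) | i) <;> simp

theorem qMinus_of_x_zero (v : (Fin k ⊕ Fin k) ⊕ Fin 2 → F) (hx : ∀ i, v (.inl (.inl i)) = 0) :
    qMinus k F c d v = v (.inr 0) ^ 2 + c * v (.inr 0) * v (.inr 1) + d * v (.inr 1) ^ 2 := by
  rw [coe_qMinus]
  unfold Cfsg.quadFormMinus
  rw [Finset.sum_eq_zero, zero_add]
  intro i _
  rw [hx i, zero_mul]

theorem qMinus_TS [Fintype F] (hcd : ∀ z₁ z₂ : F, z₁ ^ 2 + c * z₁ * z₂ + d * z₂ ^ 2 = 0 → z₁ = 0 ∧ z₂ = 0)
    {W : Submodule F ((Fin k ⊕ Fin k) ⊕ Fin 2 → F)} (hW : TS (qMinus k F c d) W) : finrank F W ≠ k + 1 := by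
  intro hdim
  have hQ := nondeg_qMinus k c d hcd
  have hV : finrank F ((Fin k ⊕ Fin k) ⊕ Fin 2 → F) = 2 * (k + 1) := by
    rw [Module.finrank_fintype_fun_eq_card]
    simp only [Fintype.card_sum, Fintype.card_fin]; omega
  have hinj : Function.Injective (yEmb F k) := by
    intro x y h
    ext i
    exact congrFun h (.inl (.inr i))
  have hY : finrank F (range (yEmb F k)) = k := by
    rw [LinearMap.finrank_range_of_inj hinj, Module.finrank_fintype_fun_eq_card, Fintype.card_fin]
  have hperp : W ⊓ perp (qMinus k F c d) (range (yEmb F k)) ≤ W ⊓ range (yEmb F k) := by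
    rintro v ⟨hv1, hv2⟩
    refine ⟨hv1, ?_⟩
    have hx : ∀ i, v (.inl (.inl i)) = 0 := by
      intro i
      have h1 := mem_perp.1 hv2 (yEmb F k (Pi.single i 1)) ⟨_, rfl⟩
      rw [polar_qMinus] at h1
      have h2 : ∀ j, yEmb F k (Pi.single i 1) (.inl (.inl j)) = 0 := fun j => rfl
      have h3 : ∀ j, yEmb F k (Pi.single i 1) (.inl (.inr j)) = (Pi.single i 1 : Fin k → F) j := fun j => rfl
      have h4 : ∀ j, yEmb F k (Pi.single i 1) (.inr j) = 0 := fun j => rfl
      simp only [h2, h3, h4, zero_mul, mul_zero, zero_add, add_zero] at h1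
      rw [Finset.sum_eq_single i] at h1
      · rw [Pi.single_eq_same, one_mul] at h1
        exact h1
      · intro j _ hj
        rw [Pi.single_eq_of_ne hj, zero_mul]
      · intro h; exact absurd (Finset.mem_univ i) h
    have h1 := hW v hv1
    rw [qMinus_of_x_zero c d v hx] at h1
    obtain ⟨h5, h6⟩ := hcd _ _ h1
    refine ⟨fun i => v (.inl (.inr i)), ?_⟩
    ext ((i | i) | i)
    · exact (hx i).symm
    · rfl
    · fin_cases i
      · exact h5.symm
      · exact h6.symm
  have h1 := Submodule.finrank_mono hperp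
  have h2 : W ⊓ perp (qMinus k F c d) (range (yEmb F k)) = perp (qMinus k F c d) (W ⊔ range (yEmb F k)) := by
    ext x
    constructor
    · rintro ⟨hx1, hx2⟩ w hw
      obtain ⟨y, hy, z, hz, rfl⟩ := Submodule.mem_sup.1 hw
      have hx3 := hW.le_perp hx1
      rw [map_add, LinearMap.add_apply, hx3 y hy, hx2 z hz, add_zero]
    · intro hx
      refine ⟨?_, fun w hw => hx w (Submodule.mem_sup_right hw)⟩
      rw [← hW.perp_eq hQ hV hdim]
      exact fun w hw => hx w (Submodule.mem_sup_left hw)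
  rw [h2, finrank_perp hQ, hV] at h1
  have h3 := Submodule.finrank_sup_add_finrank_inf_eq W (range (yEmb F k))
  have h4 : finrank F ↥(W ⊔ range (yEmb F k)) ≤ 2 * (k + 1) := by rw [← hV]; exact Submodule.finrank_le _
  omega

end minus

end CfsgLib.Inv2
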