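import Cfsg.Agent.LibInv2oH13

set_option autoImplicit false

/-! Maximal totally singular subspaces and the parity of isometries (seat helper13). -/

namespace CfsgLib.Inv2

open Module LinearMap Submodule Cfsg.Agent.H22

section par
variable {F V : Type*} [Field F] [AddCommGroup V] [Module F V] {Q : QuadraticForm F V}

/-- totally singular -/
def TS (Q : QuadraticForm F V) (W : Submodule F V) : Prop := ∀ w ∈ W, Q w = 0

/-- perpendicular space -/
def perp (Q : QuadraticForm F V) (W : Submodule F V) : Submodule F V :=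
  LinearMap.BilinForm.orthogonal (QuadraticMap.polarBilin Q) W

theorem mem_perp {W : Submodule F V} {x : V} : x ∈ perp Q W ↔ ∀ w ∈ W, QuadraticMap.polar Q w x = 0 := Iff.rfl

theorem TS.polar {W : Submodule F V} (h : TS Q W) {x y : V} (hx : x ∈ W) (hy : y ∈ W) : QuadraticMap.polar Q x y = 0 := by
  unfold QuadraticMap.polar
  rw [h _ (add_mem hx hy), h _ hx, h _ hy]; simp

theorem TS.le_perp {W : Submodule F V} (h : TS Q W) : W ≤ perp Q W := fun _ hx _ hw => h.polar hw hx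

theorem perp_anti {W W' : Submodule F V} (h : W ≤ W') : perp Q W' ≤ perp Q W := fun _ hx w hw => hx w (h hw)

theorem refl_eq_sub (a : V) (ha : Q a ≠ 0) (x : V) : refl Q a ha x = x - ((Q a)⁻¹ * QuadraticMap.polar Q a x) • a := refl_apply Q a ha x

theorem TS.map {W : Submodule F V} (h : TS Q W) {g : V ≃ₗ[F] V} (hg : g ∈ OGrp Q) : TS Q (W.map (g : V →ₗ[F] V)) := by
  rintro _ ⟨x, hx, rfl⟩
  show Q (g x) = 0
  rw [hg x]
  exact h x hx

theorem finrank_map_equiv (W : Submodule F V) (g : V ≃ₗ[F] V) : finrank F ↥(W.map (g : V →ₗ[F] V)) = finrank F W :=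
  LinearEquiv.finrank_map_eq g W

variable [FiniteDimensional F V]

theorem finrank_perp (hQ : (QuadraticMap.polarBilin Q).Nondegenerate) (W : Submodule F V) :
    finrank F (perp Q W) = finrank F V - finrank F W :=
  LinearMap.BilinForm.finrank_orthogonal hQ W

theorem TS.finrank_le (hQ : (QuadraticMap.polarBilin Q).Nondegenerate) {W : Submodule F V} (h : TS Q W) {m : ℕ}
    (hV : finrank F V = 2 * m) : finrank F W ≤ m := by
  have h1 := Submodule.finrank_mono h.le_perp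
  have h2 := Submodule.finrank_le W
  rw [finrank_perp hQ, hV] at h1
  omega

theorem TS.perp_eq (hQ : (QuadraticMap.polarBilin Q).Nondegenerate) {W : Submodule F V} (h : TS Q W) {m : ℕ}
    (hV : finrank F V = 2 * m) (hW : finrank F W = m) : perp Q W = W := by
  symm
  apply Submodule.eq_of_le_of_finrank_eq h.le_perp
  rw [finrank_perp hQ, hV]
  omega

/-- lattice part of the parity step -/
theorem step_lat {W W1 W2 H P : Submodule F V} (hH1 : H ≤ W1) (hH2 : H ≤ W2) (h12 : W1 ⊓ W2 ≤ H) (hP1 : W1 ≤ P) (hP2 : W2 ≤ P)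
    (hr : finrank F ↥(W ⊓ P) = finrank F ↥(W ⊓ H) + 1) {u : V} (hu : u ∈ W ⊓ P) (huH : u ∉ H) (hu1 : u ∈ W1) :
    finrank F ↥(W ⊓ W1) = finrank F ↥(W ⊓ H) + 1 ∧ finrank F ↥(W ⊓ W2) = finrank F ↥(W ⊓ H) := by
  have hA1 : W ⊓ W1 ≤ W ⊓ P := inf_le_inf_left _ hP1
  have hA2 : W ⊓ H < W ⊓ W1 := by
    refine lt_of_le_of_ne (inf_le_inf_left _ hH1) ?_
    intro h
    have h1 : u ∈ W ⊓ W1 := ⟨hu.1, hu1⟩
    rw [← h] at h1
    exact huH h1.2
  have h1 := Submodule.finrank_mono hA1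
  have h2 := Submodule.finrank_lt_finrank_of_lt hA2
  have hA : W ⊓ W1 = W ⊓ P := Submodule.eq_of_le_of_finrank_eq hA1 (by omega)
  have hB : W ⊓ W2 = W ⊓ H := by
    apply le_antisymm
    · intro x hx
      refine ⟨hx.1, h12 ⟨?_, hx.2⟩⟩
      have hx1 : x ∈ W ⊓ P := ⟨hx.1, hP2 hx.2⟩
      rw [← hA] at hx1
      exact hx1.2
    · exact inf_le_inf_left _ hH2
  exact ⟨by omega, by rw [hB]⟩

/-- reflections change the intersection parity -/
theorem step_parity (hQ : (QuadraticMap.polarBilin Q).Nondegenerate) {m : ℕ} (hV : finrank F V = 2 * m) {W W' : Submodule F V}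
    (hW : TS Q W) (hW' : TS Q W') (hWm : finrank F W = m) (hWm' : finrank F W' = m) (a : V) (ha : Q a ≠ 0) :
    ∃ k, finrank F ↥(W ⊓ W'.map (refl Q a ha : V →ₗ[F] V)) + finrank F ↥(W ⊓ W') = 2 * k + 1 := by
  set H := W' ⊓ ker (QuadraticMap.polarBilin Q a) with hHdef
  set W'' := W'.map (refl Q a ha : V →ₗ[F] V) with hW''def
  have hTS'' : TS Q W'' := hW'.map (refl_mem Q a ha)
  have hWm'' : finrank F W'' = m := by rw [hW''def, finrank_map_equiv, hWm']
  have haW : a ∉ W' := fun h => ha (hW' a h)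
  have h1 : ¬ W' ≤ ker (QuadraticMap.polarBilin Q a) := by
    intro h
    apply haW
    rw [← hW'.perp_eq hQ hV hWm', mem_perp]
    intro w hw
    rw [QuadraticMap.polar_comm]
    exact h hw
  have hH := finrank_inf_ker W' (QuadraticMap.polarBilin Q a) h1
  rw [← hHdef] at hH
  have hHW' : H ≤ W' := inf_le_left
  have hHW'' : H ≤ W'' := by
    intro x hx
    refine ⟨x, hx.1, ?_⟩
    show refl Q a ha x = x
    have h2 : QuadraticMap.polar Q a x = 0 := hx.2
    rw [refl_eq_sub, h2, mul_zero, zero_smul, sub_zero]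
  have hWW : W' ⊓ W'' ≤ H := by
    rintro x ⟨hx1, y, hy, hyx⟩
    have hyx' : refl Q a ha y = x := hyx
    rw [refl_eq_sub] at hyx'
    have hc : (Q a)⁻¹ * QuadraticMap.polar Q a y = 0 := by
      by_contra hc
      apply haW
      have h2 : ((Q a)⁻¹ * QuadraticMap.polar Q a y) • a ∈ W' := by
        have : ((Q a)⁻¹ * QuadraticMap.polar Q a y) • a = y - x := by rw [← hyx']; abel
        rw [this]
        exact sub_mem hy hx1
      exact (Submodule.smul_mem_iff _ hc).1 h2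
    rw [hc, zero_smul, sub_zero] at hyx'
    refine ⟨hx1, ?_⟩
    rw [← hyx']
    rcases mul_eq_zero.1 hc with h3 | h3
    · exact absurd h3 (inv_ne_zero ha)
    · exact h3
  have hP1 : W' ≤ perp Q H := le_trans hW'.le_perp (perp_anti hHW')
  have hP2 : W'' ≤ perp Q H := le_trans hTS''.le_perp (perp_anti hHW'')
  have haP : a ∈ perp Q H := by
    intro w hw
    have h2 : QuadraticMap.polar Q a w = 0 := hw.2
    show QuadraticMap.polar Q w a = 0
    rw [QuadraticMap.polar_comm, h2]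
  have hPr := finrank_perp hQ H
  have hsup : W' ⊔ span F {a} = perp Q H := by
    apply Submodule.eq_of_le_of_finrank_eq
    · apply sup_le hP1
      rw [span_le, Set.singleton_subset_iff]
      exact haP
    · have h2 := Submodule.finrank_sup_add_finrank_inf_eq W' (span F {a})
      have h3 : W' ⊓ span F {a} = ⊥ := by
        rw [eq_bot_iff]
        rintro x ⟨hx1, hx2⟩
        obtain ⟨c, rfl⟩ := mem_span_singleton.1 hx2
        by_cases hc : c = 0
        · rw [hc, zero_smul]; exact zero_mem _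
        · exact absurd ((Submodule.smul_mem_iff _ hc).1 hx1) haW
      have ha0 : a ≠ 0 := by rintro rfl; exact haW (zero_mem _)
      rw [h3, finrank_bot, finrank_span_singleton ha0] at h2
      rw [hPr, hV]
      omega
  have hkey : ∀ u ∈ perp Q H, Q u = 0 → u ∈ W' ∨ u ∈ W'' := by
    intro u hu hQu
    rw [← hsup, Submodule.mem_sup] at hu
    obtain ⟨x, hx, y, hy, rfl⟩ := hu
    obtain ⟨c, rfl⟩ := mem_span_singleton.1 hy
    rw [qadd, hW' x hx, qsmul, QuadraticMap.polar_smul_right, smul_eq_mul] at hQu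
    have h2 : c * (c * Q a + QuadraticMap.polar Q x a) = 0 := by rw [← hQu]; ring
    rcases mul_eq_zero.1 h2 with hc | hc
    · left
      rw [hc, zero_smul, add_zero]; exact hx
    · right
      refine ⟨x, hx, ?_⟩
      show refl Q a ha x = _
      rw [refl_eq_sub, QuadraticMap.polar_comm, sub_eq_add_neg, ← neg_smul]
      congr 2
      have h3 : QuadraticMap.polar Q x a = - (c * Q a) := by linear_combination hc
      rw [h3]
      field_simp
  have hr : finrank F ↥(W ⊓ perp Q H) = finrank F ↥(W ⊓ H) + 1 := by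
    have h2 : W ⊓ perp Q H = perp Q (W ⊔ H) := by
      rw [← hW.perp_eq hQ hV hWm]
      ext x
      constructor
      · rintro ⟨hx1, hx2⟩ w hw
        rw [hW.perp_eq hQ hV hWm] at hw
        obtain ⟨y, hy, z, hz, rfl⟩ := Submodule.mem_sup.1 hw
        rw [map_add, LinearMap.add_apply, hx1 y hy, hx2 z hz, add_zero]
      · intro hx
        rw [hW.perp_eq hQ hV hWm] at hx
        exact ⟨fun w hw => hx w (Submodule.mem_sup_left hw), fun w hw => hx w (Submodule.mem_sup_right hw)⟩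
    rw [h2, finrank_perp hQ, hV]
    have h3 := Submodule.finrank_sup_add_finrank_inf_eq W H
    have h4 : finrank F ↥(W ⊔ H) ≤ finrank F V := Submodule.finrank_le _
    omega
  obtain ⟨u, hu, huH⟩ : ∃ u ∈ W ⊓ perp Q H, u ∉ H := by
    by_contra hcon
    push Not at hcon
    have h2 : W ⊓ perp Q H ≤ W ⊓ H := fun x hx => ⟨hx.1, hcon x hx⟩
    have h3 := Submodule.finrank_mono h2
    omega
  rcases hkey u hu.2 (hW u hu.1) with h | h
  · obtain ⟨h2, h3⟩ := step_lat hHW' hHW'' hWW hP1 hP2 hr hu huH h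
    exact ⟨finrank F ↥(W ⊓ H), by omega⟩
  · obtain ⟨h2, h3⟩ := step_lat hHW'' hHW' (by rw [inf_comm]; exact hWW) hP2 hP1 hr hu huH h
    exact ⟨finrank F ↥(W ⊓ H), by omega⟩

/-- the parity of an isometry, from maximal totally singular subspaces -/
theorem par_TS (hQ : (QuadraticMap.polarBilin Q).Nondegenerate) (hF : (∃ a : F, a ≠ 0 ∧ a ≠ 1) ∨ finrank F V ≠ 4)
    {m : ℕ} (hV : finrank F V = 2 * m) {W : Submodule F V} (hW : TS Q W) (hWm : finrank F W = m) (g : OGrp Q) :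
    par hQ hF g = (-1) ^ (finrank F ↥(W ⊓ W.map ((g : V ≃ₗ[F] V) : V →ₗ[F] V)) + m) := by
  have hkey : ∀ (u : V) (hu : Q u ≠ 0) (y : OGrp Q), par hQ hF y = (-1) ^ (finrank F ↥(W ⊓ W.map ((y : V ≃ₗ[F] V) : V →ₗ[F] V)) + m) →
      par hQ hF (oRefl Q u hu * y) = (-1) ^ (finrank F ↥(W ⊓ W.map (((oRefl Q u hu * y : OGrp Q) : V ≃ₗ[F] V) : V →ₗ[F] V)) + m) := by
    intro u hu y hy
    rw [map_mul, par_refl, hy]
    have h1 : W.map (((oRefl Q u hu * y : OGrp Q) : V ≃ₗ[F] V) : V →ₗ[F] V) = (W.map ((y : V ≃ₗ[F] V) : V →ₗ[F] V)).map (refl Q u hu : V →ₗ[F] V) := by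
      rw [← Submodule.map_comp]
      rfl
    rw [h1]
    obtain ⟨k, hk⟩ := step_parity hQ hV hW (hW.map y.2) hWm (by rw [finrank_map_equiv, hWm]) u hu
    have h2 : (-1 : ℤˣ) ^ (finrank F ↥(W ⊓ (W.map ((y : V ≃ₗ[F] V) : V →ₗ[F] V)).map (refl Q u hu : V →ₗ[F] V)) + finrank F ↥(W ⊓ W.map ((y : V ≃ₗ[F] V) : V →ₗ[F] V))) = -1 := by
      rw [hk, pow_add, pow_mul]; simp
    rw [pow_add] at h2
    rw [pow_add, pow_add]
    rcases Int.units_eq_one_or ((-1 : ℤˣ) ^ (finrank F ↥(W ⊓ (W.map ((y : V ≃ₗ[F] V) : V →ₗ[F] V)).map (refl Q u hu : V →ₗ[F] V)))) with h3 | h3 <;>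
    rcases Int.units_eq_one_or ((-1 : ℤˣ) ^ (finrank F ↥(W ⊓ W.map ((y : V ≃ₗ[F] V) : V →ₗ[F] V)))) with h4 | h4 <;>
    rw [h3, h4] at h2 <;> rw [h3, h4] <;> simp at h2 ⊢
  have hg : g ∈ Subgroup.closure {g : OGrp Q | ∃ v, ∃ hv : Q v ≠ 0, g = oRefl Q v hv} := by
    rw [closure_oRefl hQ hF]; trivial
  induction hg using Subgroup.closure_induction_left with
  | one =>
    have h1 : W.map (((1 : OGrp Q) : V ≃ₗ[F] V) : V →ₗ[F] V) = W := Submodule.map_id W
    rw [h1, inf_idem, hWm, map_one, ← two_mul, pow_mul]; simp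
  | mul_left x hx y _ ih =>
    obtain ⟨v, hv, rfl⟩ := hx
    exact hkey v hv y ih
  | inv_mul_cancel x hx y _ ih =>
    obtain ⟨v, hv, rfl⟩ := hx
    rw [oRefl_inv]
    exact hkey v hv y ih

theorem comm_refl {T : OGrp Q} (w : V) (hw : nl (T : V ≃ₗ[F] V) w = 0) (hQw : Q w ≠ 0) : oRefl Q w hQw * T = T * oRefl Q w hQw := by
  have h1 : (T : V ≃ₗ[F] V) w = w := by rw [nl_apply, sub_eq_zero] at hw; exact hw
  apply Subtype.ext
  ext x
  show refl Q w hQw ((T : V ≃ₗ[F] V) x) = (T : V ≃ₗ[F] V) (refl Q w hQw x)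
  rw [refl_eq_sub, refl_eq_sub, map_sub, map_smul, h1]
  congr 3
  conv_lhs => rw [← h1]
  exact OGrp_polar T.2 w x

/-- when the fixed space is not totally singular, the class does not split -/
theorem exists_par_one (hQ : (QuadraticMap.polarBilin Q).Nondegenerate) (hF : (∃ a : F, a ≠ 0 ∧ a ≠ 1) ∨ finrank F V ≠ 4)
    {T S : OGrp Q} (g0 : OGrp Q) (hg0 : g0 * T * g0⁻¹ = S) (w : V) (hw : nl (T : V ≃ₗ[F] V) w = 0) (hQw : Q w ≠ 0) :
    ∃ g : OGrp Q, par hQ hF g = 1 ∧ g * T * g⁻¹ = S := by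
  rcases Int.units_eq_one_or (par hQ hF g0) with h | h
  · exact ⟨g0, h, hg0⟩
  · refine ⟨g0 * oRefl Q w hQw, ?_, ?_⟩
    · rw [map_mul, h, par_refl]; rfl
    · rw [mul_assoc g0, comm_refl w hw hQw, mul_inv_rev, mul_assoc g0, mul_assoc T, mul_inv_cancel_left, ← mul_assoc, hg0]

theorem fix_TS (hQ : (QuadraticMap.polarBilin Q).Nondegenerate) {m : ℕ} (hV : finrank F V = 2 * m) [CharP F 2]
    {T : V ≃ₗ[F] V} (hT2 : T * T = 1) (h : ∀ w, nl T w = 0 → Q w = 0) :
    finrank F (range (nl T)) = m ∧ ∀ v, Q (nl T v) = 0 := by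
  have hle : range (nl T) ≤ ker (nl T) := by
    rintro _ ⟨x, rfl⟩; exact nl_sq T hT2 x
  have hTS : TS Q (ker (nl T)) := fun w hw => h w hw
  have h1 := hTS.finrank_le hQ hV
  have h2 := LinearMap.finrank_range_add_finrank_ker (nl T)
  have h3 := Submodule.finrank_mono hle
  rw [hV] at h2
  exact ⟨by omega, fun v => h _ (nl_sq T hT2 v)⟩

/-- the split case -/
theorem split_iff (hQ : (QuadraticMap.polarBilin Q).Nondegenerate) (hF : (∃ a : F, a ≠ 0 ∧ a ≠ 1) ∨ finrank F V ≠ 4)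
    {m : ℕ} (hV : finrank F V = 2 * m) {T S : OGrp Q} (g0 : OGrp Q) (hg0 : g0 * T * g0⁻¹ = S)
    (hm : finrank F (range (nl (T : V ≃ₗ[F] V))) = m) (hs : ∀ v, Q (nl (T : V ≃ₗ[F] V) v) = 0) (hpar : par hQ hF T = 1) :
    par hQ hF g0 = 1 ↔ Even (finrank F ↥(range (nl (T : V ≃ₗ[F] V)) ⊓ range (nl (S : V ≃ₗ[F] V)))) := by
  have hW : TS Q (range (nl (T : V ≃ₗ[F] V))) := by
    rintro _ ⟨x, rfl⟩; exact hs x
  have hev : Even m := by
    rw [par_eq, hm, neg_one_pow_eq_one_iff_even (by decide)] at hpar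
    exact hpar
  have hmap : (range (nl (T : V ≃ₗ[F] V))).map ((g0 : V ≃ₗ[F] V) : V →ₗ[F] V) = range (nl (S : V ≃ₗ[F] V)) := by
    have hc : ∀ x, (g0 : V ≃ₗ[F] V) ((T : V ≃ₗ[F] V) x) = (S : V ≃ₗ[F] V) ((g0 : V ≃ₗ[F] V) x) := by
      intro x
      have h1 : g0 * T = S * g0 := by rw [← hg0]; group
      exact LinearEquiv.congr_fun (congrArg Subtype.val h1) x
    have hNc : ∀ x, (g0 : V ≃ₗ[F] V) (nl (T : V ≃ₗ[F] V) x) = nl (S : V ≃ₗ[F] V) ((g0 : V ≃ₗ[F] V) x) := by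
      intro x
      rw [nl_apply, nl_apply, map_sub, hc]
    ext y
    constructor
    · rintro ⟨_, ⟨x, rfl⟩, rfl⟩
      exact ⟨(g0 : V ≃ₗ[F] V) x, (hNc x).symm⟩
    · rintro ⟨x, rfl⟩
      obtain ⟨z, rfl⟩ := (g0 : V ≃ₗ[F] V).surjective x
      exact ⟨nl (T : V ≃ₗ[F] V) z, ⟨z, rfl⟩, hNc z⟩
  rw [par_TS hQ hF hV hW hm g0, hmap, neg_one_pow_eq_one_iff_even (by decide), Nat.even_add]
  constructor
  · intro h; exact h.2 hev
  · intro h; exact ⟨fun _ => hev, fun _ => h⟩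

end par

section mat
variable {F : Type*} [Field F] {ι : Type} [Fintype ι] [DecidableEq ι] (Q : QuadraticForm F (ι → F))
open scoped Matrix

theorem toLin_nl (t : ↥(Cfsg.isometryGroup F ⇑Q)) :
    Matrix.toLin' (((t : Matrix.GeneralLinearGroup ι F) : Matrix ι ι F) - 1) = nl ((oIso Q t : OGrp Q) : (ι → F) ≃ₗ[F] (ι → F)) := by
  apply LinearMap.ext
  intro x
  rw [nl_apply, Matrix.toLin'_apply, Matrix.sub_mulVec, Matrix.one_mulVec, oIso_apply]

theorem invol_oIso' {t : ↥(Cfsg.isometryGroup F ⇑Q)} (ht : orderOf t = 2) : oIso Q t * oIso Q t = 1 :=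
  Subtype.ext (invol_oIso Q ht)

theorem q_add_mulVec [CharP F 2] (t : ↥(Cfsg.isometryGroup F ⇑Q)) (v : ι → F) :
    Q (v + ((t : Matrix.GeneralLinearGroup ι F) : Matrix ι ι F) *ᵥ v) = Q (nl ((oIso Q t : OGrp Q) : (ι → F) ≃ₗ[F] (ι → F)) v) := by
  congr 1
  rw [nl_apply, oIso_apply]
  have h : v = - v := by
    rw [eq_neg_iff_add_eq_zero, ← two_smul F, CharTwo.two_eq_zero, zero_smul]
  have h2 : ∀ y : ι → F, v + y = y - v := by
    intro y
    conv_lhs => rw [h]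
    rw [← sub_eq_neg_add]
  exact h2 _

theorem par_iff [Fintype F] [CharP F 2] (hQ : (QuadraticMap.polarBilin Q).Nondegenerate) (hF : (∃ a : F, a ≠ 0 ∧ a ≠ 1) ∨ finrank F (ι → F) ≠ 4)
    (hι : Nonempty ι) (t : ↥(Cfsg.isometryGroup F ⇑Q)) : t ∈ Cfsg.Omega F ⇑Q ↔ par hQ hF (oIso Q t) = 1 := by
  rw [mem_Omega_iff, (omega_even hQ hF (exists_ne 0)).2]

/-- classes of involutions in `Ω` when the fixed space is not totally singular -/
theorem omega_conj_of_ne [Fintype F] [CharP F 2] {m : ℕ} (hQ : (QuadraticMap.polarBilin Q).Nondegenerate)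
    (h5 : 5 ≤ Fintype.card ι) (hm : Fintype.card ι = 2 * m) (t s : ↥(Cfsg.isometryGroup F ⇑Q)) (ht : orderOf t = 2) (hconj : IsConj t s)
    (hne : ¬ ((((t : Matrix.GeneralLinearGroup ι F) : Matrix ι ι F) - 1).rank = m ∧
      ∀ v : ι → F, Q (v + ((t : Matrix.GeneralLinearGroup ι F) : Matrix ι ι F) *ᵥ v) = 0)) :
    ∃ g ∈ Cfsg.Omega F ⇑Q, g * t * g⁻¹ = s := by
  have hfr : finrank F (ι → F) = Fintype.card ι := Module.finrank_fintype_fun_eq_card F
  have hι : Nonempty ι := Fintype.card_pos_iff.1 (by omega)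
  have hF : (∃ a : F, a ≠ 0 ∧ a ≠ 1) ∨ finrank F (ι → F) ≠ 4 := Or.inr (by omega)
  have hex : ∃ w, nl ((oIso Q t : OGrp Q) : (ι → F) ≃ₗ[F] (ι → F)) w = 0 ∧ Q w ≠ 0 := by
    by_contra hcon
    push Not at hcon
    apply hne
    obtain ⟨h1, h2⟩ := fix_TS hQ (m := m) (by omega) (invol_oIso Q ht) hcon
    refine ⟨by rw [rank_nl, h1], fun v => ?_⟩
    rw [q_add_mulVec]; exact h2 v
  obtain ⟨w, hw1, hw2⟩ := hex
  obtain ⟨g0, hg0⟩ := isConj_iff.1 hconj
  obtain ⟨g, hg1, hg2⟩ := exists_par_one hQ hF (T := oIso Q t) (S := oIso Q s) (oIso Q g0) (by rw [← map_inv, ← map_mul, ← map_mul, hg0]) w hw1 hw2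
  refine ⟨(oIso Q).symm g, ?_, ?_⟩
  · rw [par_iff Q hQ hF hι, MulEquiv.apply_symm_apply, hg1]
  · apply (oIso Q).injective
    rw [map_mul, map_mul, map_inv, MulEquiv.apply_symm_apply, hg2]

/-- classes of involutions in `Ω` in the split case -/
theorem omega_conj_iff [Fintype F] [CharP F 2] {m : ℕ} (hQ : (QuadraticMap.polarBilin Q).Nondegenerate)
    (h5 : 5 ≤ Fintype.card ι) (hm : Fintype.card ι = 2 * m) (t s : ↥(Cfsg.isometryGroup F ⇑Q)) (htO : t ∈ Cfsg.Omega F ⇑Q) (hconj : IsConj t s)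
    (hne : ((((t : Matrix.GeneralLinearGroup ι F) : Matrix ι ι F) - 1).rank = m ∧
      ∀ v : ι → F, Q (v + ((t : Matrix.GeneralLinearGroup ι F) : Matrix ι ι F) *ᵥ v) = 0)) :
    (∃ g ∈ Cfsg.Omega F ⇑Q, g * t * g⁻¹ = s) ↔
      Even (finrank F ↥(range (Matrix.toLin' (((t : Matrix.GeneralLinearGroup ι F) : Matrix ι ι F) - 1)) ⊓
        range (Matrix.toLin' (((s : Matrix.GeneralLinearGroup ι F) : Matrix ι ι F) - 1)))) := by
  have hfr : finrank F (ι → F) = Fintype.card ι := Module.finrank_fintype_fun_eq_card F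
  have hι : Nonempty ι := Fintype.card_pos_iff.1 (by omega)
  have hF : (∃ a : F, a ≠ 0 ∧ a ≠ 1) ∨ finrank F (ι → F) ≠ 4 := Or.inr (by omega)
  have h1 : finrank F (range (nl ((oIso Q t : OGrp Q) : (ι → F) ≃ₗ[F] (ι → F)))) = m := by rw [← rank_nl, hne.1]
  have h2 : ∀ v, Q (nl ((oIso Q t : OGrp Q) : (ι → F) ≃ₗ[F] (ι → F)) v) = 0 := fun v => by rw [← q_add_mulVec]; exact hne.2 v
  have h3 : par hQ hF (oIso Q t) = 1 := (par_iff Q hQ hF hι t).1 htO
  rw [toLin_nl, toLin_nl]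
  constructor
  · rintro ⟨g, hg, hgt⟩
    exact (split_iff hQ hF (m := m) (by omega) (oIso Q g) (by rw [← map_inv, ← map_mul, ← map_mul, hgt]) h1 h2 h3).1
      ((par_iff Q hQ hF hι g).1 hg)
  · intro hev
    obtain ⟨g0, hg0⟩ := isConj_iff.1 hconj
    refine ⟨g0, ?_, hg0⟩
    rw [par_iff Q hQ hF hι]
    exact (split_iff hQ hF (m := m) (by omega) (oIso Q g0) (by rw [← map_inv, ← map_mul, ← map_mul, hg0]) h1 h2 h3).2 hev

end mat

end CfsgLib.Inv2
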