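import Mathlib
import Cfsg.Agent.LibInv8

set_option autoImplicit false
set_option linter.all false

/-! Invariant coordinate subspaces in characteristic two -/

namespace CfsgLib.Inv

open Cfsg Matrix CfsgLib.BN CfsgLib.Chev Cfsg.Lie

section

variable {D : ChevalleyDatum} {T : Tb} (g : Good3 D T) {F : Type*} [Field F] [CharP F 2]

noncomputable def chkInv (T : Tb) (I : ℕ) : Bool :=
  allB T.n fun r => allB (T.n + T.l) fun k => !(I.testBit k) ||
    (actT T.acc r [(1, 1, 0)] (k, (1, 0, 0))).all fun q => !(Nat.beq (q.2.1.natAbs % 2) 1) || I.testBit q.1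

include g in
theorem Em_bV {I k : ℕ} (h : I.testBit k = true) : Em D T F I *ᵥ bV D F T.n k = bV D F T.n k := by
  ext a
  rw [Em, mulVec_diagonal, bV_ix g]
  by_cases h1 : k = ix T a
  · rw [if_pos h1, ← h1, h]; simp [bt]
  · rw [if_neg h1, mul_zero]

theorem mev_odd (t : F) (m : Mon) : mev t (1 : F) m = bt F (Nat.beq (m.1.natAbs % 2) 1) * t ^ m.2.1 := by
  rw [mev, one_pow, mul_one, cast_odd]

include g in
theorem Em_vec {I : ℕ} (t : F) (L : List (ℕ × Mon)) (h : ∀ q ∈ L, Nat.beq (q.2.1.natAbs % 2) 1 = true → I.testBit q.1 = true) :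
    Em D T F I *ᵥ vec D t 1 T.n L = vec D t 1 T.n L := by
  induction L with
  | nil => simp [Chev.vec]
  | cons q L ih =>
    rw [vec_cons, mulVec_add, ih (fun q' hq' => h q' (by simp [hq'])), mulVec_smul]
    congr 1
    cases hc : Nat.beq (q.2.1.natAbs % 2) 1
    · rw [mev_odd, hc]; simp [bt]
    · rw [Em_bV g (h q (by simp) hc)]

include g in
theorem X_Em {I : ℕ} (hI : chkInv T I = true) {r : ℕ} (hr : r < T.n) (t : F) :
    D.x F r t * Em D T F I = Em D T F I * D.x F r t * Em D T F I := by
  unfold chkInv at hI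
  rw [allB_iff] at hI
  have h1 := hI r hr
  rw [allB_iff] at h1
  have key : ∀ b : D.Idx, (D.x F r t * Em D T F I) *ᵥ bV D F T.n (ix T b) =
      (Em D T F I * D.x F r t * Em D T F I) *ᵥ bV D F T.n (ix T b) := by
    intro b
    have h2 := h1 (ix T b) (ix_lt g b)
    rw [Bool.or_eq_true, Bool.not_eq_true', List.all_eq_true] at h2
    rw [← mulVec_mulVec, ← mulVec_mulVec, ← mulVec_mulVec]
    rcases h2 with h2 | h2
    · have : Em D T F I *ᵥ bV D F T.n (ix T b) = 0 := by
        ext a
        rw [Em, mulVec_diagonal, bV_ix g]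
        by_cases h3 : ix T b = ix T a
        · rw [if_pos h3, ← h3, h2]; simp [bt]
        · rw [if_neg h3, mul_zero]; rfl
      rw [this, mulVec_zero, mulVec_zero]
    · by_cases h4 : I.testBit (ix T b) = true
      · rw [Em_bV g h4]
        have h := actT_sound (F := F) t 1 g.link hr [(1, 1, 0)] (ix T b, (1, 0, 0)) (ix_lt g b)
        have e1 : pev t (1 : F) [(1, 1, 0)] = t := by simp [pev, mev]
        have e2 : mev t (1 : F) (1, 0, 0) = 1 := by simp [mev]
        rw [e1] at h
        simp only [e2, one_smul] at h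
        have h' : D.x F r t *ᵥ bV D F T.n (ix T b) = vec D t 1 T.n (actT T.acc r [(1, 1, 0)] (ix T b, (1, 0, 0))) := h
        rw [h']
        symm
        apply Em_vec g
        intro q hq ho
        have := h2 q hq
        rw [Bool.or_eq_true, Bool.not_eq_true', ho] at this
        simpa using this
      · have h4' : I.testBit (ix T b) = false := Bool.eq_false_iff.2 h4
        have : Em D T F I *ᵥ bV D F T.n (ix T b) = 0 := by
          ext a
          rw [Em, mulVec_diagonal, bV_ix g]
          by_cases h3 : ix T b = ix T a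
          · rw [if_pos h3, ← h3, h4']; simp [bt]
          · rw [if_neg h3, mul_zero]; rfl
        rw [this, mulVec_zero, mulVec_zero]
  ext a b
  have := congrFun (key b) a
  rw [bV_single g, mulVec_single_one, mulVec_single_one] at this
  exact this

include g in
theorem G_Em {I : ℕ} (hI : chkInv T I = true) {h : GL D.Idx F} (hh : h ∈ D.group F) :
    (h : Matrix D.Idx D.Idx F) * Em D T F I = Em D T F I * (h : Matrix D.Idx D.Idx F) * Em D T F I := by
  suffices H : (h : Matrix D.Idx D.Idx F) * Em D T F I = Em D T F I * (h : Matrix D.Idx D.Idx F) * Em D T F I ∧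
      ((h⁻¹ : GL D.Idx F) : Matrix D.Idx D.Idx F) * Em D T F I =
        Em D T F I * ((h⁻¹ : GL D.Idx F) : Matrix D.Idx D.Idx F) * Em D T F I from H.1
  unfold ChevalleyDatum.group at hh
  have hEE : Em D T F I * Em D T F I = Em D T F I := by
    rw [Em, diagonal_mul_diagonal]
    congr 1
    ext a
    cases I.testBit (ix T a) <;> simp [bt]
  have hmul : ∀ x y : Matrix D.Idx D.Idx F, x * Em D T F I = Em D T F I * x * Em D T F I →
      y * Em D T F I = Em D T F I * y * Em D T F I → (x * y) * Em D T F I = Em D T F I * (x * y) * Em D T F I := by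
    intro x y hx hy
    have e1 : (x * y) * Em D T F I = (x * Em D T F I) * y * Em D T F I := by
      rw [mul_assoc x y, hy]; simp only [mul_assoc]
    have e2 : Em D T F I * (x * y) * Em D T F I = (Em D T F I * x * Em D T F I) * y * Em D T F I := by
      rw [mul_assoc (Em D T F I) (x * y), mul_assoc x y, hy]; simp only [mul_assoc]
    rw [e1, e2, ← hx]
  induction hh using Subgroup.closure_induction with
  | mem x hx =>
    obtain ⟨r, t, hrt⟩ := hx
    have hr : (r : ℕ) < T.n := lt_of_lt_of_eq r.2 g.hn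
    have e : (x : Matrix D.Idx D.Idx F) = D.x F r t := by rw [hrt, x_eq r.2]
    have e' := g.eq_X e
    rw [e', ← g.X_neg]
    exact ⟨X_Em g hI hr t, X_Em g hI hr (-t)⟩
  | one => simp [hEE]
  | mul x y _ _ hx hy =>
    constructor
    · rw [Units.val_mul]; exact hmul _ _ hx.1 hy.1
    · rw [_root_.mul_inv_rev, Units.val_mul]; exact hmul _ _ hy.2 hx.2
  | inv x _ hx => exact ⟨hx.2, by rw [inv_inv]; exact hx.1⟩

include g in
theorem rank_mask_conj {I : ℕ} (hI : chkInv T I = true) {h y₁ y₂ : GL D.Idx F} (hh : h ∈ D.group F) (hy : y₁ ∈ D.group F)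
    (e : h * y₁ * h⁻¹ = y₂) :
    (Em D T F I * ((y₂ : Matrix D.Idx D.Idx F) - 1) * Em D T F I).rank ≤
      (Em D T F I * ((y₁ : Matrix D.Idx D.Idx F) - 1) * Em D T F I).rank := by
  have h1 : ((y₂ : Matrix D.Idx D.Idx F) - 1) = (h : Matrix D.Idx D.Idx F) * ((y₁ : Matrix D.Idx D.Idx F) - 1) *
      ((h⁻¹ : GL D.Idx F) : Matrix D.Idx D.Idx F) := by
    rw [← e, mul_sub, sub_mul, mul_one, Units.val_mul, Units.val_mul, Units.mul_inv]
  set E := Em D T F I with hE
  have hEE : E * E = E := by
    rw [hE, Em, diagonal_mul_diagonal]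
    congr 1
    ext a
    cases I.testBit (ix T a) <;> simp [bt]
  have a1 := G_Em g hI hh
  have a2 := G_Em g hI (inv_mem hh)
  have a3 := G_Em g hI hy
  have a4 : ((y₁ : Matrix D.Idx D.Idx F) - 1) * E = E * ((y₁ : Matrix D.Idx D.Idx F) - 1) * E := by
    rw [sub_mul, a3, mul_sub, sub_mul, one_mul, mul_one, hEE]
  rw [← hE] at a1 a2 a3
  set H := (h : Matrix D.Idx D.Idx F)
  set H' := ((h⁻¹ : GL D.Idx F) : Matrix D.Idx D.Idx F)
  set N := ((y₁ : Matrix D.Idx D.Idx F) - 1)
  have e1 : E * ((y₂ : Matrix D.Idx D.Idx F) - 1) * E = (E * H) * (E * N * E) * (H' * E) := by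
    rw [h1]
    calc E * (H * N * H') * E = E * H * N * (H' * E) := by simp only [mul_assoc]
      _ = E * H * N * (E * H' * E) := by rw [← a2]
      _ = E * H * (N * E) * (H' * E) := by simp only [mul_assoc]
      _ = E * H * (E * N * E) * (H' * E) := by rw [← a4]
  rw [e1]
  exact (Matrix.rank_mul_le_left _ _).trans (Matrix.rank_mul_le_right _ _)

end

end CfsgLib.Inv
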