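import Mathlib
import Cfsg.Agent.LibInv8
import Cfsg.Agent.LibChevAll

set_option autoImplicit false
set_option linter.all false
set_option maxRecDepth 100000

/-! certificates for the involutions of E6 in characteristic two -/

namespace CfsgLib.Inv

open Cfsg Matrix CfsgLib.BN CfsgLib.Chev Cfsg.Lie

def fE6 (r : ℕ) : ℕ := dig 8 256 3803738038536251093285668336036263142276302006951326751290497557642631068211683231123618782249768682053166501618731670228665231918274426922099326454561041380143236728391 r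

def w0E6 : List ℕ := [0,1,2,0,3,1,2,0,3,2,4,3,1,2,0,3,2,4,3,1,5,4,3,1,2,0,3,2,4,3,1,5,4,3,2,0]

def relE6 : List (List (List ℕ × ℕ) × List (Bool × List ℕ × List ℕ) × List ℕ) := [
  ([([1,3,4,5,2,3,4,1,3,2],0),([5,4,3,2],0),([4,3],2),([],3)], [(false,[0,11,27,32],[71,60,44,39]),(false,[8,69,51,24],[71,60,39]),(true,[2,3,4,3,0,2,1],[65,55,67]),(false,[],[55,65,67])], [55,65,67]),
  ([([1,3,4,5,2,3,4,1,3,2],0),([5,4,3,2],0),([4,3],2)], [(false,[0,11,27],[71,60,44]),(true,[0,2,3,1,0],[55,65,67])], [55,65,67]),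
  ([([1,3,4,5,2,3,4,1,3,2],0),([5,4,3,2],0)], [(false,[0,11],[71,60]),(true,[2,3,1],[66,68]),(false,[],[68,66])], [68,66]),
  ([([1,3,4,5,2,3,4,1,3,2],0)], [(false,[0],[71])], [71]),
  ([], [], [])
]

def certE6_0 : List (List ℕ × List ℕ × ℕ) := [
  ([], [], 0),
  ([0], [], 0),
  ([1], [1,3], 1),
  ([0,1], [], 0),
  ([2], [], 0),
  ([0,2,0], [], 0),
  ([1,2], [], 0),
  ([0,1,2,0], [], 0),
  ([3], [], 1),
  ([0,3], [], 0),
  ([1,3,1], [], 0),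
  ([0,1,3,1], [], 0),
  ([2,3,2], [], 0),
  ([0,2,0,3,2,0], [], 0),
  ([1,2,3,1,2,3], [], 0),
  ([0,1,2,0,3,1,2,0,3,2], [], 0)]

def certE6_1 : List (List ℕ × List ℕ × ℕ) := [
  ([4], [], 0),
  ([0,4], [], 0),
  ([1,4], [], 0),
  ([0,1,4], [], 0),
  ([2,4], [], 0),
  ([0,2,0,4], [], 0),
  ([1,2,4], [], 0),
  ([0,1,2,0,4], [], 0),
  ([3,4,3], [], 0),
  ([0,3,4,3], [], 0),
  ([1,3,1,4,3,1], [], 0),
  ([0,1,3,1,4,3,1], [], 0),
  ([2,3,2,4,3,2], [], 2),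
  ([0,2,0,3,2,0,4,3,2,0], [], 0),
  ([1,2,3,1,2,3,4,3,1,2,3,4], [], 0),
  ([0,1,2,0,3,1,2,0,3,2,4,3,1,2,0,3,2,4,3,1], [], 0)]

def certE6_2 : List (List ℕ × List ℕ × ℕ) := [
  ([5], [], 0),
  ([0,5], [], 0),
  ([1,5], [], 0),
  ([0,1,5], [], 0),
  ([2,5], [], 0),
  ([0,2,0,5], [], 0),
  ([1,2,5], [], 0),
  ([0,1,2,0,5], [], 0),
  ([3,5], [], 0),
  ([0,3,5], [], 0),
  ([1,3,1,5], [], 0),
  ([0,1,3,1,5], [], 0),
  ([2,3,2,5], [], 0),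
  ([0,2,0,3,2,0,5], [], 0),
  ([1,2,3,1,2,3,5], [], 0),
  ([0,1,2,0,3,1,2,0,3,2,5], [], 0)]

def certE6_3 : List (List ℕ × List ℕ × ℕ) := [
  ([4,5,4], [], 0),
  ([0,4,5,4], [], 0),
  ([1,4,5,4], [], 0),
  ([0,1,4,5,4], [], 0),
  ([2,4,5,4], [], 0),
  ([0,2,0,4,5,4], [], 0),
  ([1,2,4,5,4], [], 0),
  ([0,1,2,0,4,5,4], [], 0),
  ([3,4,3,5,4,3], [], 0),
  ([0,3,4,3,5,4,3], [], 0),
  ([1,3,1,4,3,1,5,4,3,1], [], 0),
  ([0,1,3,1,4,3,1,5,4,3,1], [], 0),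
  ([2,3,2,4,3,2,5,4,3,2], [], 0),
  ([0,2,0,3,2,0,4,3,2,0,5,4,3,2,0], [], 3),
  ([1,2,3,1,2,3,4,3,1,2,3,4,5,4,3,1,2,3,4,5], [], 0),
  ([0,1,2,0,3,1,2,0,3,2,4,3,1,2,0,3,2,4,3,1,5,4,3,1,2,0,3,2,4,3,1,5,4,3,2,0], [], 4)]

def certE6 : List (List ℕ × List ℕ × ℕ) := certE6_0 ++ certE6_1 ++ certE6_2 ++ certE6_3

def RE6 : List (List ℕ) := [[71], [68,66], [55,65,67]]

def LE6 : List (List ℕ × ℕ) := [([71], 22), ([68,66], 32), ([55,65,67], 38)]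

theorem chkF_E6 : chkF tE6 fE6 w0E6 = true := by decide +kernel

theorem chkRel_E6 : chkRel tE6 128 ([] :: RE6) relE6 = true := by decide +kernel

theorem chkAll_E6 : chkAll tE6 fE6 (relE6.map fun p => omw p.1) 0 certE6 = true := by decide +kernel

theorem sq_E6 : ∀ b ∈ ([] :: RE6), chkE tE6 128 (b ++ b) [] = true := by
  have h : (([] :: RE6).all fun b => chkE tE6 128 (b ++ b) []) = true := by decide +kernel
  intro b hb
  exact List.all_eq_true.1 h b hb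

theorem rk_E6 : ∀ p ∈ LE6, chkRk tE6 128 (2 ^ (tE6.n + tE6.l) - 1) p.1 p.2 = true := by
  have h : (LE6.all fun p => chkRk tE6 128 (2 ^ (tE6.n + tE6.l) - 1) p.1 p.2) = true := by decide +kernel
  intro b hb
  exact List.all_eq_true.1 h b hb

theorem cl_E6 {F : Type*} [Field F] [Fintype F] [CharP F 2] (t : ↥(chevE6.group F)) (ht : t * t = 1) :
    ∃ b ∈ ([] :: RE6), ∃ c, c * t * c⁻¹ = XG good3_E6 F b := by
  obtain ⟨P, h1, h2, h3⟩ := good3_E6.exists_BN (F := F)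
  exact classify2 good3_E6 (P := P) ⟨h1, h2, h3⟩ chkF_E6 chkRel_E6 chkAll_E6 sq_E6 ht

end CfsgLib.Inv
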