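import Mathlib
import Cfsg.Agent.LibInv8
import Cfsg.Agent.LibChevAll

set_option autoImplicit false
set_option linter.all false
set_option maxRecDepth 100000

/-! certificates for the involutions of F4 in characteristic two -/

namespace CfsgLib.Inv

open Cfsg Matrix CfsgLib.BN CfsgLib.Chev Cfsg.Lie

def fF4 (r : ℕ) : ℕ := Nat.sub 47 r

def w0F4 : List ℕ := [0,1,0,2,1,0,2,1,2,3,2,1,0,2,1,2,3,2,1,0,2,1,2,3]

def relF4 : List (List (List ℕ × ℕ) × List (Bool × List ℕ × List ℕ) × List ℕ) := [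
  ([([3,2,1,2,3,0,1],2),([0,1],2),([1],2),([],2)], [(false,[0,6,17,22],[47,41,30,25]),(false,[5,45,31,21],[47,41,25]),(false,[34,29,9],[39,41]),(true,[1,2,3,1],[39,45])], [39,45]),
  ([([3,2,1,2,3,0,1],2),([0,1],2),([2],1)], [(false,[0,6,19],[47,41,28]),(false,[42,23,18],[28,47]),(true,[2,3,1,0],[39,45])], [39,45]),
  ([([3,2,1,2,3,0,1],2),([0,1],2),([1],2)], [(false,[0,6,17],[47,41,30]),(false,[33,29,11],[40,41]),(true,[1,2,3],[39,45])], [39,45]),
  ([([3,2,1,2,3,0,1],2),([1,2,1],0)], [(false,[0,10],[47,37]),(true,[2,3],[45,39]),(false,[],[39,45])], [39,45]),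
  ([([3,2,1,2,3,0,1],2),([0,1],2)], [(false,[0,6],[47,41]),(false,[29,18],[47,44])], [47,44]),
  ([([3,2,1,2,3,0,1],2)], [(false,[0],[47])], [47]),
  ([([0,1,2,3,1,2,1],0)], [(false,[3],[44])], [44]),
  ([], [], [])
]

def certF4_0 : List (List ℕ × List ℕ × ℕ) := [
  ([], [], 0),
  ([0], [0,1], 1),
  ([1], [], 1),
  ([0,1,0], [], 0),
  ([2], [], 2),
  ([0,2], [], 3),
  ([1,2,1,2], [], 4),
  ([0,1,0,2,1,0,2,1,2], [], 5),
  ([3], [3,2], 2),
  ([0,3], [3,2], 3),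
  ([1,3], [3,2,1,0], 3),
  ([0,1,0,3], [], 0),
  ([2,3,2], [], 0),
  ([0,2,3,2], [], 0),
  ([1,2,1,2,3,2,1,2,3], [], 6),
  ([0,1,0,2,1,0,2,1,2,3,2,1,0,2,1,2,3,2,1,0,2,1,2,3], [], 7)]

def certF4 : List (List ℕ × List ℕ × ℕ) := certF4_0

def RF4 : List (List ℕ) := [[47], [44], [47,44], [39,45]]

def LF4 : List (List ℕ × ℕ) := [([47], 16), ([44], 16), ([47,44], 21), ([39,45], 24)]

theorem chkF_F4 : chkF tF4 fF4 w0F4 = true := by decide +kernel

theorem chkRel_F4 : chkRel tF4 64 ([] :: RF4) relF4 = true := by decide +kernel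

theorem chkAll_F4 : chkAll tF4 fF4 (relF4.map fun p => omw p.1) 0 certF4 = true := by decide +kernel

theorem sq_F4 : ∀ b ∈ ([] :: RF4), chkE tF4 64 (b ++ b) [] = true := by
  have h : (([] :: RF4).all fun b => chkE tF4 64 (b ++ b) []) = true := by decide +kernel
  intro b hb
  exact List.all_eq_true.1 h b hb

theorem rk_F4 : ∀ p ∈ LF4, chkRk tF4 64 (2 ^ (tF4.n + tF4.l) - 1) p.1 p.2 = true := by
  have h : (LF4.all fun p => chkRk tF4 64 (2 ^ (tF4.n + tF4.l) - 1) p.1 p.2) = true := by decide +kernel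
  intro b hb
  exact List.all_eq_true.1 h b hb

theorem cl_F4 {F : Type*} [Field F] [Fintype F] [CharP F 2] (t : ↥(chevF4.group F)) (ht : t * t = 1) :
    ∃ b ∈ ([] :: RF4), ∃ c, c * t * c⁻¹ = XG good3_F4 F b := by
  obtain ⟨P, h1, h2, h3⟩ := good3_F4.exists_BN (F := F)
  exact classify2 good3_F4 (P := P) ⟨h1, h2, h3⟩ chkF_F4 chkRel_F4 chkAll_F4 sq_F4 ht

end CfsgLib.Inv
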