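import Mathlib
import Cfsg.Agent.LibInv9
import Cfsg.Agent.LibInvF4

set_option autoImplicit false
set_option linter.all false
set_option maxRecDepth 100000

namespace CfsgLib.Inv

open Cfsg Matrix CfsgLib.BN CfsgLib.Chev Cfsg.Lie

theorem inv_F4 : chkInv tF4 864208490889096 = true := by decide +kernel

theorem mk_F4a : chkRk tF4 64 864208490889096 [47] 6 = true := by decide +kernel

theorem mk_F4b : chkRk tF4 64 864208490889096 [44] 10 = true := by decide +kernel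

theorem pair_F4 {F : Type*} [Field F] [CharP F 2] : ∀ b₁ ∈ RF4, ∀ b₂ ∈ RF4,
    (∃ h ∈ chevF4.group F, h * XP good3_F4 F b₁ * h⁻¹ = XP good3_F4 F b₂) → b₁ = b₂ := by
  have hrk := rk_F4
  intro b₁ hb₁ b₂ hb₂ h12
  have h21 : ∃ h ∈ chevF4.group F, h * XP good3_F4 F b₂ * h⁻¹ = XP good3_F4 F b₁ := by
    obtain ⟨h, hh, e⟩ := h12
    exact ⟨h⁻¹, inv_mem hh, by rw [← e]; group⟩
  have key : ¬ (∃ h ∈ chevF4.group F, h * XP good3_F4 F [47] * h⁻¹ = XP good3_F4 F [44]) := by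
    rintro ⟨h, hh, e⟩
    have h1 := rank_mask_conj good3_F4 (F := F) inv_F4 hh (XP_mem good3_F4 _) e
    rw [rank_of_chk good3_F4 mk_F4a, rank_of_chk good3_F4 mk_F4b] at h1
    omega
  have hr : ∀ p ∈ LF4, ∀ q ∈ LF4, (∃ h ∈ chevF4.group F, h * XP good3_F4 F p.1 * h⁻¹ = XP good3_F4 F q.1) →
      p.2 = q.2 := by
    rintro p hp q hq ⟨h, _, e⟩
    rw [← rank_of_chk' good3_F4 (F := F) (hrk p hp), ← rank_of_chk' good3_F4 (F := F) (hrk q hq)]
    exact rank_conj e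
  have hL : LF4.map Prod.fst = RF4 := rfl
  rw [← hL, List.mem_map] at hb₁ hb₂
  obtain ⟨p, hp, rfl⟩ := hb₁
  obtain ⟨q, hq, rfl⟩ := hb₂
  have h3 := hr p hp q hq h12
  have h4 : ∀ p ∈ LF4, ∀ q ∈ LF4, p.2 = q.2 → p.1 = q.1 ∨ (p.1 = [47] ∧ q.1 = [44]) ∨ (p.1 = [44] ∧ q.1 = [47]) := by
    decide
  rcases h4 p hp q hq h3 with h5 | ⟨h5, h6⟩ | ⟨h5, h6⟩
  · exact h5
  · rw [h5, h6] at h12; exact absurd h12 key
  · rw [h5, h6] at h21; exact absurd h21 key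

end CfsgLib.Inv
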