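import Mathlib
import Cfsg.Agent.LibInv8
import Cfsg.Agent.LibChevAll

set_option autoImplicit false
set_option linter.all false
set_option maxRecDepth 100000

/-! certificates for the involutions of G2 in characteristic two -/

namespace CfsgLib.Inv

open Cfsg Matrix CfsgLib.BN CfsgLib.Chev Cfsg.Lie

def fG2 (r : ℕ) : ℕ := Nat.sub 11 r

def w0G2 : List ℕ := [0,1,0,1,0,1]

def relG2 : List (List (List ℕ × ℕ) × List (Bool × List ℕ × List ℕ) × List ℕ) := [
  ([([1,0],1),([],0)], [(false,[0,4],[11,7]),(false,[8,5,3],[9])], [9]),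
  ([([1,0],1)], [(false,[0],[11])], [11]),
  ([([0,1],0)], [(false,[2],[9])], [9]),
  ([], [], [])
]

def certG2 : List (List ℕ × List ℕ × ℕ) := [
  ([], [], 0),
  ([0], [], 1),
  ([1], [], 2),
  ([0,1,0,1,0,1], [], 3)
]

def RG2 : List (List ℕ) := [[11], [9]]

def LG2 : List (List ℕ × ℕ) := [([11], 6), ([9], 6)]

theorem chkF_G2 : chkF tG2 fG2 w0G2 = true := by decide +kernel

theorem chkRel_G2 : chkRel tG2 16 ([] :: RG2) relG2 = true := by decide +kernel

theorem chkAll_G2 : chkAll tG2 fG2 (relG2.map fun p => omw p.1) 0 certG2 = true := by decide +kernel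

theorem sq_G2 : ∀ b ∈ ([] :: RG2), chkE tG2 16 (b ++ b) [] = true := by
  have h : (([] :: RG2).all fun b => chkE tG2 16 (b ++ b) []) = true := by decide +kernel
  intro b hb
  exact List.all_eq_true.1 h b hb

theorem rk_G2 : ∀ p ∈ LG2, chkRk tG2 16 (2 ^ (tG2.n + tG2.l) - 1) p.1 p.2 = true := by
  have h : (LG2.all fun p => chkRk tG2 16 (2 ^ (tG2.n + tG2.l) - 1) p.1 p.2) = true := by decide +kernel
  intro b hb
  exact List.all_eq_true.1 h b hb

theorem cl_G2 {F : Type*} [Field F] [Fintype F] [CharP F 2] (t : ↥(chevG2.group F)) (ht : t * t = 1) :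
    ∃ b ∈ ([] :: RG2), ∃ c, c * t * c⁻¹ = XG good3_G2 F b := by
  obtain ⟨P, h1, h2, h3⟩ := good3_G2.exists_BN (F := F)
  exact classify2 good3_G2 (P := P) ⟨h1, h2, h3⟩ chkF_G2 chkRel_G2 chkAll_G2 sq_G2 ht

end CfsgLib.Inv
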