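import Mathlib
import Cfsg.Agent.LibRtConj
import Cfsg.Agent.LibInvG2

set_option autoImplicit false
set_option linter.all false
set_option maxRecDepth 100000

/-! the two classes of involutions of G2 in characteristic two are different -/

namespace CfsgLib.Inv

open Cfsg Matrix CfsgLib.BN CfsgLib.Chev Cfsg.Lie

noncomputable def chkG2p : Bool :=
  (List.range 12).any (fun a => decide (tG2.pair a 11 = 3)) &&
  (List.range 12).all (fun a => !decide (tG2.pair a 9 = 3)) && 
  (List.range 12).all (fun s => !Nat.ble (tG2.n / 2) s || tG2.chkEv 11 s)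

theorem chkG2p_t : chkG2p = true := by decide +kernel

theorem n_G2 : tG2.n = 12 := by decide +kernel

theorem not_conj_G2 {F : Type*} [Field F] [CharP F 2] {h : GL chevG2.Idx F} (hh : h ∈ chevG2.group F) :
    h * XP good3_G2 F [11] * h⁻¹ ≠ XP good3_G2 F [9] := by
  intro e
  have hn := n_G2
  have hc := chkG2p_t
  unfold chkG2p at hc
  simp only [Bool.and_eq_true, List.any_eq_true, List.all_eq_true, List.mem_range, Bool.or_eq_true, decide_eq_true_eq] at hc
  obtain ⟨⟨⟨a, ha, h1⟩, h2⟩, h3⟩ := hc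
  have e' : h * good3_G2.X 11 (1 : F) * h⁻¹ = good3_G2.X 9 (1 : F) := by simpa [XP] using e
  obtain ⟨w, hw, hw2⟩ := good3_G2.root_conj (by omega) (by omega) (by omega) one_ne_zero one_ne_zero
    (good3_G2.X_central (F := F) (by omega) (fun s hs hs' => by
      rcases h3 s (by omega) with h4 | h4
      · exfalso
        rw [Bool.not_eq_true'] at h4
        rw [Nat.ble_eq_true_of_le hs] at h4
        exact absurd h4 (by decide)
      · exact h4) 1) hh e'
  have h5 := good3_G2.pair_wact hw (r := a) (s := 11) (by omega) (by omega)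
  have h6 := h2 (wact tG2 w a) (by have := good3_G2.wact_lt hw (show a < tG2.n by omega); omega)
  rw [Bool.not_eq_true'] at h6
  rw [hw2, h1] at h5
  exact absurd h5 (of_decide_eq_false h6)

theorem pair_G2 {F : Type*} [Field F] [CharP F 2] :
    ∀ b₁ ∈ RG2, ∀ b₂ ∈ RG2, (∃ h ∈ chevG2.group F, h * XP good3_G2 F b₁ * h⁻¹ = XP good3_G2 F b₂) → b₁ = b₂ := by
  rintro b₁ h1 b₂ h2 ⟨h, hh, e⟩
  simp only [RG2, List.mem_cons, List.not_mem_nil, or_false] at h1 h2
  rcases h1 with rfl | rfl <;> rcases h2 with rfl | rfl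
  · rfl
  · exact absurd e (not_conj_G2 hh)
  · exact absurd (by rw [← e]; group : h⁻¹ * XP good3_G2 F [11] * (h⁻¹)⁻¹ = XP good3_G2 F [9]) (not_conj_G2 (Subgroup.inv_mem _ hh))
  · rfl

end CfsgLib.Inv
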