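import Mathlib
import Cfsg.Agent.LibInv8
import Cfsg.Agent.LibTw5

set_option autoImplicit false
set_option linter.all false

/-! Involutions in twisted groups of characteristic two -/

namespace CfsgLib.Inv

open Cfsg Matrix CfsgLib.BN CfsgLib.Chev Cfsg.Lie

section

variable {D : ChevalleyDatum} {T : Tb} {g : Good3 D T} {K : Type*} [Field K]

/-- the class of `n` in the Weyl group is given by `w` -/
def Wd (g : Good3 D T) (n : GL D.Idx K) (w : List ℕ) : Prop := VW T w ∧ ∃ h ∈ D.diagonalSubgroup K, n = g.nw w * h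

theorem Wd.mul {n n' : GL D.Idx K} {w w' : List ℕ} (h : Wd g n w) (h' : Wd g n' w') : Wd g (n * n') (w ++ w') := by
  obtain ⟨hw, a, ha, rfl⟩ := h
  obtain ⟨hw', b, hb, rfl⟩ := h'
  have h3 := g.N_H (Subgroup.inv_mem _ (g.nw_mem_N hw')) ha
  rw [inv_inv] at h3
  refine ⟨g.VW_append hw hw', ((g.nw w')⁻¹ * a * g.nw w') * b, Subgroup.mul_mem _ h3 hb, ?_⟩
  rw [Good3.nw_append]; group

theorem Wd.congr {n : GL D.Idx K} {w w' : List ℕ} (h : Wd g n w) (hw' : VW T w') (e : ∀ r < T.n, wact T w r = wact T w' r) :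
    Wd g n w' := by
  obtain ⟨hw, a, ha, rfl⟩ := h
  obtain ⟨x, hx, ex⟩ := g.nw_of_pw (F := K) hw hw' ((g.pw_eq_iff hw hw').2 e)
  exact ⟨hw', x * a, Subgroup.mul_mem _ hx ha, by rw [ex]; group⟩

theorem Wd.one : Wd g (1 : GL D.Idx K) [] := ⟨fun i hi => by simp at hi, 1, Subgroup.one_mem _, by simp [Good3.nw]⟩

theorem Wd.inv {n : GL D.Idx K} {w : List ℕ} (h : Wd g n w) : Wd g n⁻¹ w.reverse := by
  obtain ⟨hw, a, ha, rfl⟩ := h
  have hwr := Good3.VW_reverse hw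
  -- nw (w.reverse ++ w) ∈ H
  have hv0 : VW T [] := fun i hi => by simp at hi
  obtain ⟨x, hx, ex⟩ := g.nw_of_pw (F := K) (g.VW_append hwr hw) hv0 (by
    rw [g.pw_eq_iff (g.VW_append hwr hw) hv0]
    intro r hr
    rw [Good3.wact_append, Good3.wact_nil]
    exact g.wact_rev hw hr)
  have hnil : g.nw (F := K) [] = 1 := rfl
  rw [Good3.nw_append, hnil, one_mul] at ex
  have h3 := g.N_H (g.nw_mem_N hw) (Subgroup.mul_mem _ (Subgroup.inv_mem _ ha) (Subgroup.one_mem _))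
  refine ⟨hwr, g.nw w * (x⁻¹ * (1 : GL D.Idx K)) * (g.nw w)⁻¹ * (g.nw w * (a⁻¹ * 1) * (g.nw w)⁻¹), Subgroup.mul_mem _
    (g.N_H (g.nw_mem_N hw) (Subgroup.mul_mem _ (Subgroup.inv_mem _ hx) (Subgroup.one_mem _))) h3, ?_⟩
  have e : g.nw w.reverse = x * (g.nw (F := K) w)⁻¹ := by rw [← ex]; group
  rw [e]
  have h4 : x * (g.nw w)⁻¹ * (g.nw w * (x⁻¹ * 1) * (g.nw w)⁻¹ * (g.nw w * (a⁻¹ * 1) * (g.nw w)⁻¹)) =
    (a⁻¹ * (g.nw (F := K) w)⁻¹) := by group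
  rw [h4]; group

theorem Wd.act_eq {n : GL D.Idx K} {w w' : List ℕ} (h : Wd g n w) (h' : Wd g n w') : ∀ r < T.n, wact T w r = wact T w' r := by
  obtain ⟨hw, a, ha, e⟩ := h
  obtain ⟨hw', b, hb, e'⟩ := h'
  apply g.wact_congr (F := K) hw hw' (h := b * a⁻¹) (Subgroup.mul_mem _ hb (Subgroup.inv_mem _ ha))
  rw [← mul_assoc, ← e', e]; group

end

variable {D : ChevalleyDatum} {T : Tb} {g : Good3 D T} {K : Type*} [Field K] [Fintype K] {S : Tw g K} {m : ℕ} {orb : ℕ → List ℕ}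
  {E : Subgroup (GL D.Idx K)} {q δ : ℕ} (R : TwR2 S m orb E q δ)

/-- BN-pair of the twisted group -/
structure IsStdT (R : TwR2 S m orb E q δ) (P : BNPair ↥E) (nk : ℕ → GL D.Idx K) : Prop where
  hnk : ∀ k < m, nk k ∈ E ∧ ∃ h ∈ D.diagonalSubgroup K, nk k = g.nw (orb k) * h
  hB : P.B = (D.borelSubgroup K ⊓ E).subgroupOf E
  hN : P.N = (D.monomialSubgroup K ⊓ E).subgroupOf E
  hS : P.S = {n : ↥E | ∃ k < m, (n : GL D.Idx K) = nk k}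

variable {R} {P : BNPair ↥E} {nk : ℕ → GL D.Idx K} (hP : IsStdT R P nk)
include hP

namespace IsStdT

theorem mem_B {x : ↥E} : x ∈ P.B ↔ (x : GL D.Idx K) ∈ D.borelSubgroup K := by
  rw [hP.hB, Subgroup.mem_subgroupOf, Subgroup.mem_inf]
  exact ⟨fun h => h.1, fun h => ⟨h, x.2⟩⟩

theorem mem_N {x : ↥E} : x ∈ P.N ↔ (x : GL D.Idx K) ∈ D.monomialSubgroup K := by
  rw [hP.hN, Subgroup.mem_subgroupOf, Subgroup.mem_inf]
  exact ⟨fun h => h.1, fun h => ⟨h, x.2⟩⟩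

theorem wd_nk {k : ℕ} (hk : k < m) : Wd g (nk k) (orb k) := ⟨S.VW_orb R.O hk, (hP.hnk k hk).2⟩

theorem exists_word {n : ↥E} (hn : n ∈ P.N) : ∃ w, S.IW w ∧ Wd g (n : GL D.Idx K) w := by
  obtain ⟨w, hw, h, hh, e⟩ := S.N_Fx (hP.mem_N.1 hn) (R.hE n.2)
  exact ⟨w, hw, hw.1, h, hh, e⟩

theorem mem_N_of {n : ↥E} {w : List ℕ} (h : Wd g (n : GL D.Idx K) w) : n ∈ P.N := by
  obtain ⟨hw, a, ha, e⟩ := h
  rw [hP.mem_N, e]
  exact Subgroup.mul_mem _ (g.nw_mem_N hw) (Good3.H_le_N ha)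

theorem eqv_iff {n n' : ↥E} {w w' : List ℕ} (h : Wd g (n : GL D.Idx K) w) (h' : Wd g (n' : GL D.Idx K) w') :
    n⁻¹ * n' ∈ P.B ↔ ∀ r < T.n, wact T w r = wact T w' r := by
  constructor
  · intro hB
    have h1 : ((n⁻¹ * n' : ↥E) : GL D.Idx K) ∈ D.diagonalSubgroup K :=
      g.BN_inter (hP.mem_B.1 hB) (hP.mem_N.1 (P.N.mul_mem (P.N.inv_mem (hP.mem_N_of h)) (hP.mem_N_of h')))
    have h2 : Wd g (n' : GL D.Idx K) w := by
      obtain ⟨hw, a, ha, e⟩ := h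
      refine ⟨hw, a * ((n⁻¹ * n' : ↥E) : GL D.Idx K), Subgroup.mul_mem _ ha h1, ?_⟩
      rw [Subgroup.coe_mul, Subgroup.coe_inv, ← mul_assoc, ← e]; group
    exact h2.act_eq h'
  · intro e
    have h2 := h.congr h'.1 e
    obtain ⟨_, a, ha, e1⟩ := h2
    obtain ⟨_, b, hb, e2⟩ := h'
    rw [hP.mem_B, Subgroup.coe_mul, Subgroup.coe_inv, e1, e2]
    have : (g.nw w' * a)⁻¹ * (g.nw w' * b) = a⁻¹ * b := by group
    rw [this]
    exact Good3.H_le_B (Subgroup.mul_mem _ (Subgroup.inv_mem _ ha) hb)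

/-- the fundamental elements -/
theorem sk_mem {k : ℕ} (hk : k < m) : (⟨nk k, (hP.hnk k hk).1⟩ : ↥E) ∈ P.S := by
  rw [hP.hS]; exact ⟨k, hk, rfl⟩

theorem len_lt {n s : ↥E} {w : List ℕ} (hw : S.IW w) (hn : Wd g (n : GL D.Idx K) w) {k : ℕ} (hk : k < m)
    (hs : (s : GL D.Idx K) = nk k) (h : S.PosOn w.reverse (orb k)) : len P n < len P (s * n) := by
  have hev := g.even
  have hnN := hP.mem_N_of hn
  have hsS : s ∈ P.S := by rw [hP.hS]; exact ⟨k, hk, hs⟩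
  have hok := S.VW_orb R.O hk
  rcases len_mul_cases P hsS hnN with h1 | h1
  · omega
  exfalso
  obtain ⟨b, hb, hC⟩ := exists_sbn P hsS hnN (by omega)
  obtain ⟨b1, hb1, b2, hb2, e⟩ : ∃ b1 ∈ D.borelSubgroup K, ∃ b2 ∈ D.borelSubgroup K,
      ((s * b * n : ↥E) : GL D.Idx K) = b1 * (n : GL D.Idx K) * b2 := by
    obtain ⟨x, hx, y, hy, e⟩ := hC
    exact ⟨x, hP.mem_B.1 hx, y, hP.mem_B.1 hy, congrArg Subtype.val e⟩
  have hnG := hP.mem_N.1 hnN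
  have hsnG := hP.mem_N.1 (P.N.mul_mem (S_N P hsS) hnN)
  rw [Subgroup.coe_mul] at hsnG
  obtain ⟨ng, hng⟩ : ∃ ng : GL D.Idx K, ng = (n : GL D.Idx K) := ⟨_, rfl⟩
  obtain ⟨sg, hsg⟩ : ∃ sg : GL D.Idx K, sg = (s : GL D.Idx K) := ⟨_, rfl⟩
  obtain ⟨bg, hbg⟩ : ∃ bg : GL D.Idx K, bg = (b : GL D.Idx K) := ⟨_, rfl⟩
  rw [Subgroup.coe_mul, Subgroup.coe_mul] at e
  obtain ⟨_, h0, hh0, es⟩ := hP.wd_nk hk
  obtain ⟨u, hu, c, hc, eb⟩ := g.mem_B.1 (hP.mem_B.1 hb)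
  rw [← hbg] at eb
  rw [← hng] at hn hnG e hsnG
  rw [← hsg] at hs e hsnG
  rw [← hbg] at e
  -- h0 u h0⁻¹ = a v
  obtain ⟨a, ha, ha', v, hv, ev⟩ := g.Um_decomp (F := K) _ (orb k) rfl hok _ (g.H_norm_U hh0 hu)
  have hh := Subgroup.mul_mem _ hh0 hc
  -- n⁻¹ (h0 c)⁻¹ v (h0 c) n ∈ U
  have hv2 : (h0 * c)⁻¹ * v * (h0 * c)⁻¹⁻¹ ∈ g.Um (orb k) := g.Um_H (Subgroup.inv_mem _ hh) hv
  have key : ∀ x ∈ g.Um (F := K) (orb k), ng⁻¹ * x * ng ∈ D.borelSubgroup K := by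
    obtain ⟨hw1, hn0, hhn0, en⟩ := hn
    have h5 : g.Um (F := K) (orb k) ≤ (D.borelSubgroup K).comap (MulAut.conj (ng⁻¹)).toMonoidHom := by
      conv_lhs => unfold Good3.Um
      rw [Subgroup.closure_le]
      rintro x ⟨r, t, a1, a2, a3, rfl⟩
      show ng⁻¹ * g.X r t * ng⁻¹⁻¹ ∈ D.borelSubgroup K
      have a4 := R.O.supp k hk r a2 a1 a3
      have hwr := Good3.VW_reverse hw1
      have a5 := g.pos_supp hwr (J := orb k) (fun i hi => R.O.lt k hk i hi) h a2 a1 a4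
      have hlt := g.wact_lt hwr a2
      have a6 := g.nw_X (F := K) hw1 hlt (((sgn T w (wact T w.reverse r) : ℤ) : K) * t)
      have a7 : wact T w (wact T w.reverse r) = r := g.wact_rev' hw1 a2
      rw [a7, ← mul_assoc] at a6
      have a8 : ((sgn T w (wact T w.reverse r) : ℤ) : K) * ((sgn T w (wact T w.reverse r) : ℤ) : K) = 1 := by
        rcases Good3.sgn_cases (T := T) w (wact T w.reverse r) with h | h <;> rw [h] <;> simp
      rw [a8, one_mul] at a6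
      have a9 : ng⁻¹ * g.X r t * ng⁻¹⁻¹ = hn0⁻¹ * g.X (wact T w.reverse r)
          (((sgn T w (wact T w.reverse r) : ℤ) : K) * t) * hn0 := by
        rw [← a6, en]; group
      rw [a9]
      exact Subgroup.mul_mem _ (Subgroup.mul_mem _ (Good3.H_le_B (Subgroup.inv_mem _ hhn0))
        (Good3.U_le_B (g.X_mem_U a5 hlt _))) (Good3.H_le_B hhn0)
    intro x hx
    have := h5 hx
    have e3 : ng⁻¹ * x * ng = ng⁻¹ * x * ng⁻¹⁻¹ := by rw [inv_inv]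
    rw [e3]; exact this
  have hv3 := key _ hv2
  -- the middle
  have hcN : g.nw (orb k) * (h0 * c) * (g.nw (orb k) * h0)⁻¹ ∈ D.diagonalSubgroup K := by
    have e4 : g.nw (orb k) * (h0 * c) * (g.nw (orb k) * h0)⁻¹ = g.nw (orb k) * (h0 * c * h0⁻¹) * (g.nw (orb k))⁻¹ := by group
    rw [e4]
    exact g.N_H (g.nw_mem_N hok) (Subgroup.mul_mem _ (Subgroup.mul_mem _ hh0 hc) (Subgroup.inv_mem _ hh0))
  set hm := g.nw (orb k) * (h0 * c) * (g.nw (orb k) * h0)⁻¹ with hhm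
  have e5 : b1 * ng * b2 = (g.nw (orb k) * a * (g.nw (orb k))⁻¹ * hm) * (sg * ng) *
      (ng⁻¹ * ((h0 * c)⁻¹ * v * (h0 * c)⁻¹⁻¹) * ng) := by
    rw [← e]
    have ev' : u = h0⁻¹ * (a * v) * h0 := by rw [← ev]; group
    rw [hs, es, eb, ev', hhm]; group
  have e6 : sg * ng = ((g.nw (orb k) * a * (g.nw (orb k))⁻¹ * hm)⁻¹ * b1) * ng *
      (b2 * (ng⁻¹ * ((h0 * c)⁻¹ * v * (h0 * c)⁻¹⁻¹) * ng)⁻¹) := by
    have : sg * ng = (g.nw (orb k) * a * (g.nw (orb k))⁻¹ * hm)⁻¹ * ((g.nw (orb k) * a * (g.nw (orb k))⁻¹ * hm) *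
      (sg * ng) * (ng⁻¹ * ((h0 * c)⁻¹ * v * (h0 * c)⁻¹⁻¹) * ng)) *
      (ng⁻¹ * ((h0 * c)⁻¹ * v * (h0 * c)⁻¹⁻¹) * ng)⁻¹ := by group
    rw [this, ← e5]; group
  have h7 := g.bruhat_uniq hnG hsnG
    (Subgroup.mul_mem _ (Subgroup.inv_mem _ (Subgroup.mul_mem _ (Good3.U_le_B ha') (Good3.H_le_B hcN))) hb1)
    (Subgroup.mul_mem _ hb2 (Subgroup.inv_mem _ hv3)) e6
  -- s n ∈ n H
  have h8 : n⁻¹ * (s * n) ∈ P.B := by
    rw [hP.mem_B, Subgroup.coe_mul, Subgroup.coe_inv, Subgroup.coe_mul, ← hng, ← hsg]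
    exact Good3.H_le_B h7
  exact not_eqv_mul P hsS hnN (by
    have := P.B.inv_mem h8
    have e9 : (n⁻¹ * (s * n))⁻¹ = (s * n)⁻¹ * n := by group
    rwa [e9] at this)

end IsStdT

end CfsgLib.Inv
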