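import Mathlib
import Cfsg.Agent.LibInvT1

set_option autoImplicit false
set_option linter.all false

/-! Involutions in twisted groups of characteristic two: reduction to certificates -/

namespace CfsgLib.Inv

open Cfsg Matrix CfsgLib.BN CfsgLib.Chev Cfsg.Lie CfsgLib.Chev.Tw

variable {D : ChevalleyDatum} {T : Tb} {g : Good3 D T} {K : Type*} [Field K] [Fintype K] {S : Tw g K} {m : ℕ} {orb : ℕ → List ℕ}
  {E : Subgroup (GL D.Idx K)} {q δ : ℕ} {R : TwR2 S m orb E q δ}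
variable {P : BNPair ↥E} {nk : ℕ → GL D.Idx K} (hP : IsStdT R P nk)
include hP

namespace IsStdT

theorem S_eq {s : ↥E} (hs : s ∈ P.S) : ∃ k, k < m ∧ (s : GL D.Idx K) = nk k := by
  rw [hP.hS] at hs; exact hs

theorem orb_rev {k : ℕ} (hk : k < m) {r : ℕ} (hr : r < T.n) : wact T (orb k).reverse r = wact T (orb k) r := by
  have hok := S.VW_orb R.O hk
  have h1 := R.O.sq k hk r hr
  have h2 := g.wact_rev hok (g.wact_lt hok hr)
  rw [h1] at h2
  exact h2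

theorem len_gt {n s : ↥E} {w : List ℕ} (hw : S.IW w) (hn : Wd g (n : GL D.Idx K) w) {k : ℕ} (hk : k < m)
    (hs : (s : GL D.Idx K) = nk k) (h : ∀ i ∈ orb k, wact T w.reverse (T.sim i) < T.n / 2) : len P (s * n) < len P n := by
  have hnN := hP.mem_N_of hn
  have hsS : s ∈ P.S := by rw [hP.hS]; exact ⟨k, hk, hs⟩
  have hw' := S.IW_append (S.IW_orb R.O hk) hw
  have hn' : Wd g ((s * n : ↥E) : GL D.Idx K) (orb k ++ w) := by
    rw [Subgroup.coe_mul, hs]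
    exact (hP.wd_nk hk).mul hn
  have h1 := hP.len_lt hw' hn' hk hs (by
    have h2 := S.flip_neg R.O (Good3.VW_reverse hw.1) hk h
    intro i hi
    have h3 := h2 i hi
    have hil := R.O.lt k hk i hi
    rw [Good3.wact_append] at h3
    rw [List.reverse_append, Good3.wact_append, hP.orb_rev hk (g.sim_lt hil)]
    exact h3)
  rw [len_ss P hsS hnN] at h1
  exact h1

theorem asc_iff {n s : ↥E} {w : List ℕ} (hw : S.IW w) (hn : Wd g (n : GL D.Idx K) w) {k : ℕ} (hk : k < m)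
    (hs : (s : GL D.Idx K) = nk k) : s ∈ Asc P n ↔ S.PosOn w.reverse (orb k) := by
  have hsS : s ∈ P.S := by rw [hP.hS]; exact ⟨k, hk, hs⟩
  constructor
  · rintro ⟨_, h⟩
    rcases S.pos_or_neg R.O (S.IW_reverse hw) hk with h1 | h1
    · exact h1
    · have := hP.len_gt hw hn hk hs h1
      omega
  · intro h
    exact ⟨hsS, hP.len_lt hw hn hk hs h⟩

theorem dec_iff {n : ↥E} {w : List ℕ} (hw : S.IW w) (hn : Wd g (n : GL D.Idx K) w)
    (h : ∀ k < m, ∀ i ∈ orb k, wact T w.reverse (T.sim i) < T.n / 2) : ∀ s ∈ P.S, len P (s * n) < len P n := by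
  intro s hs
  obtain ⟨k, hk, e⟩ := hP.S_eq hs
  exact hP.len_gt hw hn hk e (h k hk)

/-- splitting data -/
theorem spl [CharP K 2] : Spl P ((D.posUnipotent K).subgroupOf E) := by
  obtain ⟨P0, a1, a2, a3⟩ := g.exists_BN (F := K)
  have hst : IsStd g P0 := ⟨a1, a2, a3⟩
  have hs0 := hst.spl
  refine ⟨?_, ?_, ?_, ?_, ?_, ?_⟩
  · intro x hx
    rw [hP.mem_B]
    exact Good3.U_le_B (Subgroup.mem_subgroupOf.1 hx)
  · intro b hb
    obtain ⟨u, hu, c, hc, he⟩ := S.B_Fx (hP.mem_B.1 hb) (R.hE b.2)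
    refine ⟨⟨c, R.hH hc⟩, ?_, ?_, ?_⟩
    · rw [hP.mem_B]; exact Good3.H_le_B hc.1
    · rw [hP.mem_N]; exact Good3.H_le_N hc.1
    · rw [Subgroup.mem_subgroupOf, Subgroup.coe_mul, Subgroup.coe_inv, he]
      have e : (c : GL D.Idx K)⁻¹ * (u * c) = c⁻¹ * u * c⁻¹⁻¹ := by group
      rw [e]
      exact g.H_norm_U (Subgroup.inv_mem _ hc.1) hu.1
  · rintro b hb ⟨k, hk⟩
    have hbG := R.E_le_G b.2
    have h1 := hs0.two ⟨(b : GL D.Idx K), hbG⟩ (by rw [hst.mem_B]; exact hP.mem_B.1 hb)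
      ⟨k, Subtype.ext (by rw [Subgroup.coe_pow]; exact congrArg Subtype.val hk)⟩
    exact Subgroup.mem_subgroupOf.2 (Subgroup.mem_subgroupOf.1 h1)
  · intro u hu
    have hbG := R.E_le_G u.2
    obtain ⟨k, hk⟩ := hs0.pow ⟨(u : GL D.Idx K), hbG⟩ (Subgroup.mem_subgroupOf.2 (Subgroup.mem_subgroupOf.1 hu))
    exact ⟨k, Subtype.ext (by rw [Subgroup.coe_pow]; exact congrArg Subtype.val hk)⟩
  · intro u hu hN
    have h1 : (u : GL D.Idx K) ∈ D.posUnipotent K ⊓ D.monomialSubgroup K := ⟨Subgroup.mem_subgroupOf.1 hu, hP.mem_N.1 hN⟩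
    rw [g.U_inf_N, Subgroup.mem_bot] at h1
    exact Subtype.ext h1
  · obtain ⟨w, hw, h⟩ := R.exists_long
    obtain ⟨c, hc, hm⟩ := R.exists_rep hw
    have hwd : Wd g (((⟨g.nw w * c, hm⟩ : ↥E)⁻¹ : ↥E) : GL D.Idx K) w.reverse := by
      rw [Subgroup.coe_inv]
      exact Wd.inv ⟨hw.1, c, hc, rfl⟩
    refine ⟨(⟨g.nw w * c, hm⟩ : ↥E)⁻¹, hP.mem_N_of hwd, ?_⟩
    intro u hu hB
    rw [inv_inv, hP.mem_B] at hB
    have hu' := g.H_norm_U hc (Subgroup.mem_subgroupOf.1 hu)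
    have h1 := IsStd.U_conj_V (g := g) hw.1 (fun i hi => h _ (g.sim_pos hi) (g.sim_lt hi)) hu'
    have h2 : (((⟨g.nw w * c, hm⟩ : ↥E) * u * (⟨g.nw w * c, hm⟩ : ↥E)⁻¹ : ↥E) : GL D.Idx K) =
        g.nw w * (c * (u : GL D.Idx K) * c⁻¹) * (g.nw w)⁻¹ := by
      show g.nw w * c * (u : GL D.Idx K) * (g.nw w * c)⁻¹ = _
      group
    rw [← h2] at h1
    have h3 := g.B_inf_V hB h1
    have h4 : (⟨g.nw w * c, hm⟩ : ↥E) * u * (⟨g.nw w * c, hm⟩ : ↥E)⁻¹ = 1 := Subtype.ext h3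
    have e : u = (⟨g.nw w * c, hm⟩ : ↥E)⁻¹ * ((⟨g.nw w * c, hm⟩ : ↥E) * u * (⟨g.nw w * c, hm⟩ : ↥E)⁻¹) * ⟨g.nw w * c, hm⟩ := by
      group
    rw [e, h4]; group

/-- words in the fundamental elements -/
theorem exists_fl {ks : List ℕ} (hks : ∀ k ∈ ks, k < m) : ∃ x : ↥E, Wd g (x : GL D.Idx K) (fl orb ks) ∧ x ∈ Subgroup.closure
    {s : ↥E | ∃ k ∈ ks, k < m ∧ (s : GL D.Idx K) = nk k} := by
  induction ks with
  | nil => exact ⟨1, Wd.one, Subgroup.one_mem _⟩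
  | cons k ks ih =>
    obtain ⟨x, h1, h2⟩ := ih (fun j hj => hks j (List.mem_cons_of_mem _ hj))
    have hk := hks k List.mem_cons_self
    refine ⟨⟨nk k, (hP.hnk k hk).1⟩ * x, ?_, ?_⟩
    · rw [fl_cons, Subgroup.coe_mul]
      exact (hP.wd_nk hk).mul h1
    · apply Subgroup.mul_mem
      · exact Subgroup.subset_closure ⟨k, List.mem_cons_self, hk, rfl⟩
      · refine Subgroup.closure_mono ?_ h2
        rintro s ⟨j, hj, hj', e⟩
        exact ⟨j, List.mem_cons_of_mem _ hj, hj', e⟩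

end IsStdT

end CfsgLib.Inv
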