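import Mathlib
import Cfsg.Agent.LibInvT2

set_option autoImplicit false
set_option linter.all false

/-! Involutions in twisted groups of characteristic two: the classification from certificates -/

namespace CfsgLib.Inv

open Cfsg Matrix CfsgLib.BN CfsgLib.Chev Cfsg.Lie CfsgLib.Chev.Tw

section
variable {D : ChevalleyDatum} {T : Tb} (g : Good3 D T)
include g

theorem long_uniq {w w' : List ℕ} (hw : VW T w) (hw' : VW T w')
    (h : ∀ r, T.n / 2 ≤ r → r < T.n → wact T w r < T.n / 2) (h' : ∀ r, T.n / 2 ≤ r → r < T.n → wact T w' r < T.n / 2) :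
    ∀ r < T.n, wact T w r = wact T w' r := by
  have hev := g.even
  have h3 : g.pw (w ++ w'.reverse) = 1 := by
    apply g.pw_one_of_pos (g.VW_append hw (Good3.VW_reverse hw'))
    intro i hi
    rw [Good3.wact_append]
    have hsl := g.sim_lt hi
    have hsp := g.sim_pos hi
    have h4 := g.wact_lt (Good3.VW_reverse hw') hsl
    have h5 : wact T w'.reverse (T.sim i) < T.n / 2 := by
      by_contra hcon
      have := h' _ (not_lt.1 hcon) h4
      rw [g.wact_rev' hw' hsl] at this
      omega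
    have h6 := h (T.n - 1 - wact T w'.reverse (T.sim i)) (by omega) (by omega)
    rw [g.wact_neg hw h4] at h6
    omega
  rw [Good3.pw_append, g.pw_reverse hw', mul_inv_eq_one] at h3
  exact (g.pw_eq_iff hw hw').1 h3

end

/-- check for one mask -/
noncomputable def chkKT (T : Tb) (f : ℕ → ℕ) (m : ℕ) (orb : ℕ → List ℕ) (Ω : List (List ℕ)) (M : ℕ) (κ v : List ℕ) (j : ℕ) : Bool :=
  (κ.all fun k => M.testBit k && Nat.ble (k + 1) m) && ((v.all fun k => Nat.ble (k + 1) m) &&
  ((allB m fun k => !(M.testBit k) || (orb k).all fun i => Nat.ble (wact T (fl orb κ).reverse (T.sim i) + 1) (T.n / 2)) &&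
  (!((allB m fun k => (orb k).all fun i => (M.testBit k == Nat.ble (T.n / 2) (f (wact T (fl orb κ) (T.sim i))))) &&
     (allB m fun k => !(M.testBit k) || allB T.l fun i =>
        Nat.beq (wact T (orb k) (wact T (fl orb κ).reverse (f (T.sim i)))) (wact T (fl orb κ).reverse (f (wact T (orb k) (T.sim i))))))
   || (Nat.ble (j + 1) Ω.length && allB T.l fun i =>
        Nat.beq (wact T (fl orb v) (wact T (fl orb κ).reverse (f (wact T (fl orb v).reverse (T.sim i)))))
        (wact T (Ω.getD j []) (T.sim i))))))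

noncomputable def chkAllT (T : Tb) (f : ℕ → ℕ) (m : ℕ) (orb : ℕ → List ℕ) (Ω : List (List ℕ)) : ℕ → List (List ℕ × List ℕ × ℕ) → Bool
  | M, [] => Nat.beq M (2 ^ m)
  | M, p :: rest => chkKT T f m orb Ω M p.1 p.2.1 p.2.2 && chkAllT T f m orb Ω (M + 1) rest

theorem chkAllT_sound (T : Tb) (f : ℕ → ℕ) (m : ℕ) (orb : ℕ → List ℕ) (Ω : List (List ℕ)) (cert : List (List ℕ × List ℕ × ℕ)) :
    ∀ M, chkAllT T f m orb Ω M cert = true → ∀ k, M ≤ k → k < 2 ^ m → ∃ κ v j, chkKT T f m orb Ω k κ v j = true := by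
  induction cert with
  | nil =>
    intro M h k h1 h2
    rw [chkAllT, Nat.beq_eq] at h
    omega
  | cons p rest ih =>
    intro M h k h1 h2
    rw [chkAllT, Bool.and_eq_true] at h
    rcases Nat.eq_or_lt_of_le h1 with h3 | h3
    · exact ⟨_, _, _, h3 ▸ h.1⟩
    · exact ih (M + 1) h.2 k h3 h2

variable {D : ChevalleyDatum} {T : Tb} {g : Good3 D T} {K : Type*} [Field K] [Fintype K] {S : Tw g K} {m : ℕ} {orb : ℕ → List ℕ}
  {E : Subgroup (GL D.Idx K)} {q δ : ℕ} {R : TwR2 S m orb E q δ}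
variable {P : BNPair ↥E} {nk : ℕ → GL D.Idx K} (hP : IsStdT R P nk)
include hP

theorem redT [CharP K 2] {f : ℕ → ℕ} {w0 : List ℕ} {Ω : List (List ℕ)}
    {cert : List (List ℕ × List ℕ × ℕ)} (hw0 : VW T w0) (hf : ∀ r < T.n, wact T w0 r = f r)
    (h0 : ∀ i < T.l, f (T.sim i) < T.n / 2) (hff : ∀ r < T.n, f (f r) = r) (hΩ : ∀ ω ∈ Ω, VW T ω)
    (h : chkAllT T f m orb Ω 0 cert = true) {t : ↥E} (ht : t * t = 1) :
    ∃ c n, c * t * c⁻¹ = n ∧ n ∈ P.N ∧ n * n = 1 ∧ ∃ ω ∈ Ω, Wd g (n : GL D.Idx K) ω := by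
  obtain ⟨c, n, hcn, hn, hnn, hcomm, _⟩ := conj_N hP.spl ht
  obtain ⟨w, hIW, hwd⟩ := hP.exists_word hn
  have hw := hIW.1
  have hwr := Good3.VW_reverse hw
  -- the mask
  obtain ⟨M, hM, hmask⟩ := exists_mask m (fun k => S.PosOn w.reverse (orb k))
  obtain ⟨κ, v, j, hK⟩ := chkAllT_sound T f m orb Ω cert 0 h M (Nat.zero_le _) hM
  unfold chkKT at hK
  simp only [Bool.and_eq_true, Bool.or_eq_true, Bool.not_eq_true', List.all_eq_true, allB_iff, Nat.ble_eq, Nat.beq_eq,
    beq_iff_eq] at hK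
  obtain ⟨hκ1, hv1, hκ2, hK⟩ := hK
  have hκm : ∀ k ∈ κ, k < m := fun k hk => (hκ1 k hk).2
  have hκI : S.IW (fl orb κ) := S.IW_fl R.O hκm
  have hκ := hκI.1
  have hκr := Good3.VW_reverse hκ
  have hvI : S.IW (fl orb v) := S.IW_fl R.O (fun k hk => hv1 k hk)
  have hv := hvI.1
  have hvr := Good3.VW_reverse hv
  have hasc : ∀ k < m, ∀ s : ↥E, (s : GL D.Idx K) = nk k → (M.testBit k = true ↔ s ∈ Asc P n) := by
    intro k hk s hs
    rw [hmask k hk, hP.asc_iff hIW hwd hk hs]
  obtain ⟨x, hxw, hxc⟩ := hP.exists_fl hκm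
  have hxcl : x ∈ Subgroup.closure (Asc P n) := by
    refine Subgroup.closure_mono ?_ hxc
    rintro s ⟨k, hk, hk', e⟩
    exact (hasc k hk' s e).1 (hκ1 k hk).1
  have hxd : ∀ s ∈ Asc P n, len P (s * x) < len P x := by
    intro s hs
    obtain ⟨k, hk, e⟩ := hP.S_eq hs.1
    have h1 := (hasc k hk s e).2 hs
    apply hP.len_gt hκI hxw hk e
    intro i hi
    rcases hκ2 k hk with h2 | h2
    · rw [h1] at h2; exact absurd h2 (by simp)
    · have := h2 i hi
      omega
  -- the longest element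
  obtain ⟨wl, hwl, hneg⟩ := R.exists_long
  obtain ⟨hl, hhl, hml⟩ := R.exists_rep hwl
  have hyw : Wd g ((⟨g.nw wl * hl, hml⟩ : ↥E) : GL D.Idx K) wl := ⟨hwl.1, hl, hhl, rfl⟩
  have hw0neg : ∀ r, T.n / 2 ≤ r → r < T.n → wact T w0 r < T.n / 2 := by
    intro r h1 h2
    exact g.neg_supp hw0 (J := List.range T.l) (fun i hi => List.mem_range.1 hi)
      (fun i hi => by rw [hf _ (g.sim_lt (List.mem_range.1 hi))]; exact h0 i (List.mem_range.1 hi)) h2 h1
      (fun j hj hj' => absurd (List.mem_range.2 hj) hj')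
  have hwlf : ∀ r < T.n, wact T wl r = f r := by
    intro r hr
    rw [long_uniq g hwl.1 hw0 hneg hw0neg r hr, hf r hr]
  have hlong : ∀ s ∈ P.S, len P (s * (⟨g.nw wl * hl, hml⟩ : ↥E)) < len P (⟨g.nw wl * hl, hml⟩ : ↥E) := by
    apply hP.dec_iff hwl hyw
    intro k hk i hi
    have hil := R.O.lt k hk i hi
    have h1 : wact T wl.reverse (T.sim i) = f (T.sim i) := by
      have h2 := g.wact_rev hwl.1 (g.wact_lt hwl.1 (g.sim_lt hil))
      rw [hwlf _ (g.wact_lt hwl.1 (g.sim_lt hil)), hwlf _ (g.sim_lt hil), hff _ (g.sim_lt hil)] at h2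
      exact h2
    rw [h1]; exact h0 i hil
  have key := conj_N' hn hcomm hxcl hxd (hP.mem_N_of hyw) hlong
  have hκw : ∀ r < T.n, wact T (fl orb κ ++ w) r = f r := by
    have h1 : Wd g ((x * n : ↥E) : GL D.Idx K) (fl orb κ ++ w) := by
      rw [Subgroup.coe_mul]; exact hxw.mul hwd
    have h2 := (hP.eqv_iff h1 hyw).1 key
    intro r hr
    rw [h2 r hr, hwlf r hr]
  have hωa : ∀ r < T.n, wact T w r = wact T (fl orb κ).reverse (f r) := by
    intro r hr
    rw [← hκw r hr, Good3.wact_append, g.wact_rev hκ (g.wact_lt hw hr)]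
  have hωr : ∀ r < T.n, wact T w.reverse r = f (wact T (fl orb κ) r) := by
    intro r hr
    have h1 : f (wact T (fl orb κ) r) < T.n := by
      rw [← hf _ (g.wact_lt hκ hr)]; exact g.wact_lt hw0 (g.wact_lt hκ hr)
    have h2 := hωa _ h1
    rw [hff _ (g.wact_lt hκ hr), g.wact_rev hκ hr] at h2
    have h3 := g.wact_rev hw h1
    rw [h2] at h3
    exact h3
  have hcon : Nat.ble (j + 1) Ω.length = true ∧ ∀ i < T.l,
      wact T (fl orb v) (wact T (fl orb κ).reverse (f (wact T (fl orb v).reverse (T.sim i)))) =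
      wact T (Ω.getD j []) (T.sim i) := by
    rcases hK with hK | hK
    · exfalso
      rw [Bool.and_eq_false_iff] at hK
      rcases hK with hK | hK
      · have : (allB m fun k => (orb k).all fun i => M.testBit k == (T.n / 2).ble (f (wact T (fl orb κ) (T.sim i)))) = true := by
          rw [allB_iff]
          intro k hk
          rw [List.all_eq_true]
          intro i hi
          have hil := R.O.lt k hk i hi
          rw [beq_iff_eq, Bool.eq_iff_iff, hmask k hk, Nat.ble_eq, ← hωr _ (g.sim_lt hil)]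
          constructor
          · intro h1; exact h1 i hi
          · intro h1
            rcases S.pos_or_neg R.O (S.IW_reverse hIW) hk with h2 | h2
            · exact h2
            · have := h2 i hi
              omega
        rw [this] at hK
        exact absurd hK (by simp)
      · have : (allB m fun k => !M.testBit k || allB T.l fun i =>
            (wact T (orb k) (wact T (fl orb κ).reverse (f (T.sim i)))).beq
              (wact T (fl orb κ).reverse (f (wact T (orb k) (T.sim i))))) = true := by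
          rw [allB_iff]
          intro k hk
          rw [Bool.or_eq_true, Bool.not_eq_true']
          by_cases hmk : M.testBit k = true
          · right
            rw [allB_iff]
            intro i hi
            have hok := S.VW_orb R.O hk
            rw [Nat.beq_eq, ← hωa _ (g.sim_lt hi), ← hωa _ (g.wact_lt hok (g.sim_lt hi))]
            obtain ⟨s, hs⟩ : ∃ s : ↥E, (s : GL D.Idx K) = nk k := ⟨⟨nk k, (hP.hnk k hk).1⟩, rfl⟩
            have hsA := (hasc k hk s hs).1 hmk
            have h1 := hcomm _ hsA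
            have e1 : Wd g ((s * n : ↥E) : GL D.Idx K) (orb k ++ w) := by
              rw [Subgroup.coe_mul, hs]; exact (hP.wd_nk hk).mul hwd
            have e2 : Wd g ((n * s : ↥E) : GL D.Idx K) (w ++ orb k) := by
              rw [Subgroup.coe_mul, hs]; exact hwd.mul (hP.wd_nk hk)
            have h3 := (hP.eqv_iff e1 e2).1 h1 (T.sim i) (g.sim_lt hi)
            rw [Good3.wact_append, Good3.wact_append] at h3
            exact h3
          · left; simpa using hmk
        rw [this] at hK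
        exact absurd hK (by simp)
    · refine ⟨by rw [Nat.ble_eq]; exact hK.1, ?_⟩
      intro i hi
      exact hK.2 i hi
  obtain ⟨hj, hconj⟩ := hcon
  rw [Nat.ble_eq] at hj
  have hjm : Ω.getD j [] ∈ Ω := by
    rw [List.getD_eq_getElem _ _ (by omega)]
    exact List.getElem_mem _
  obtain ⟨y, hyw2, _⟩ := hP.exists_fl (fun k hk => hv1 k hk)
  refine ⟨y * c, y * n * y⁻¹, ?_, ?_, ?_, Ω.getD j [], hjm, ?_⟩
  · rw [← hcn]; group
  · have hyN := hP.mem_N_of hyw2
    exact P.N.mul_mem (P.N.mul_mem hyN hn) (P.N.inv_mem hyN)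
  · have e : y * n * y⁻¹ * (y * n * y⁻¹) = y * (n * n) * y⁻¹ := by group
    rw [e, hnn]; group
  · have h1 : Wd g ((y * n * y⁻¹ : ↥E) : GL D.Idx K) (fl orb v ++ (w ++ (fl orb v).reverse)) := by
      rw [Subgroup.coe_mul, Subgroup.coe_mul, Subgroup.coe_inv, mul_assoc]
      exact hyw2.mul (hwd.mul hyw2.inv)
    apply h1.congr (hΩ _ hjm)
    intro r hr
    apply ext_sim (g := g) (g.VW_append hv (g.VW_append hw hvr)) (hΩ _ hjm) _ r hr
    intro i hi
    rw [Good3.wact_append, Good3.wact_append, hωa _ (g.wact_lt hvr (g.sim_lt hi))]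
    exact hconj i hi

end CfsgLib.Inv
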