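import Mathlib
import Cfsg.Agent.LibInvT3

set_option autoImplicit false
set_option linter.all false

/-! Involutions in twisted groups of characteristic two: final count -/

namespace CfsgLib.Inv

open Cfsg Matrix CfsgLib.BN CfsgLib.Chev Cfsg.Lie CfsgLib.Chev.Tw

section
variable {D : ChevalleyDatum} {T : Tb} {g : Good3 D T} {K : Type*} [Field K] (S : Tw g K)

theorem s_X1 [CharP K 2] {r : ℕ} (hr : r < T.n) : S.s (g.X r (1 : K)) = g.X (S.G.rho r) 1 := by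
  rw [S.s_X hr, map_one, one_pow, mul_one]
  congr 1
  rcases S.G.eps_cases r with h | h <;> rw [h]
  · simp
  · push_cast; exact CharTwo.neg_eq 1

theorem s_XP [CharP K 2] (w : List ℕ) (hw : ∀ r ∈ w, r < T.n) : S.s (XP g K w) = XP g K (w.map S.G.rho) := by
  induction w with
  | nil => exact S.s_one
  | cons r w ih =>
    rw [List.map_cons, XP_cons, XP_cons, S.s_mul (g.X_mem_G r 1) (XP_mem g w), s_X1 S (hw r (by simp)),
      ih (fun s hs => hw s (by simp [hs]))]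

end

noncomputable def chkM (T : Tb) (W : ℕ) (ρ : ℕ → ℕ) (w : List ℕ) : Bool := chkE T W (w.map ρ) w

noncomputable def chkPathE (T : Tb) (W : ℕ) (ρ : ℕ → ℕ) : List ℕ → List (List ℕ × List ℕ) → List ℕ → Bool
  | S, [], R => decide (S = R)
  | S, p :: rest, R => chkE T W (p.1 ++ S) (p.2 ++ p.1) && (chkM T W ρ p.1 && chkPathE T W ρ p.2 rest R)

noncomputable def chkRelE (T : Tb) (W : ℕ) (ρ : ℕ → ℕ) (R : List (List ℕ)) :
    List (List ℕ × List (List ℕ × List ℕ) × List ℕ) → Bool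
  | [] => true
  | p :: rest => ((p.1.all fun i => Nat.ble (i + 1) T.l) && (decide (p.2.2 ∈ R) && (chkM T W ρ (expW T p.1) &&
      chkPathE T W ρ (expW T p.1) p.2.1 p.2.2))) && chkRelE T W ρ R rest

variable {D : ChevalleyDatum} {T : Tb} {g : Good3 D T} {K : Type*} [Field K] [Fintype K] {S : Tw g K} {m : ℕ} {orb : ℕ → List ℕ}
  {E : Subgroup (GL D.Idx K)} {q δ : ℕ} (R : TwR2 S m orb E q δ)
include R

theorem chkM_mem [CharP K 2] {W : ℕ} {w : List ℕ} (h : chkM T W S.G.rho w = true) : XP g K w ∈ E := by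
  rw [R.toTwR.E_eq]
  refine ⟨XP_mem g w, ?_⟩
  unfold chkM at h
  rw [s_XP, XP_eq g h]
  unfold chkE at h
  simp only [Bool.and_eq_true, List.all_eq_true, Nat.ble_eq] at h
  intro r hr
  rw [← Nat.succ_le_iff]
  first
    | exact h.2.2.1 r hr
    | exact h.1.2.2 r hr
    | exact h.2.1.2 r hr
    | exact h.1.2 r hr
    | exact h.1.1.2 r hr

theorem path_soundE [CharP K 2] {W : ℕ} (mv : List (List ℕ × List ℕ)) : ∀ (w b : List ℕ),
    chkPathE T W S.G.rho w mv b = true → ∃ c ∈ E, c * XP g K w * c⁻¹ = XP g K b := by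
  induction mv with
  | nil =>
    intro w b h
    rw [chkPathE, decide_eq_true_eq] at h
    subst h
    exact ⟨1, Subgroup.one_mem _, by simp⟩
  | cons p rest ih =>
    intro w b h
    rw [chkPathE, Bool.and_eq_true, Bool.and_eq_true] at h
    obtain ⟨c, hc, e⟩ := ih p.2 b h.2.2
    refine ⟨c * XP g K p.1, Subgroup.mul_mem _ hc (chkM_mem R h.2.1), ?_⟩
    have h1 := XP_eq g (F := K) h.1
    rw [XP_append, XP_append] at h1
    rw [← e]
    have e2 : XP g K p.2 = XP g K p.1 * XP g K w * (XP g K p.1)⁻¹ := by rw [h1]; group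
    rw [e2]; group

theorem classifyT [CharP K 2] {f : ℕ → ℕ} {w0 : List ℕ} {W : ℕ}
    {Rs : List (List ℕ)} {rel : List (List ℕ × List (List ℕ × List ℕ) × List ℕ)}
    {cert : List (List ℕ × List ℕ × ℕ)} (h1 : chkF T f w0 = true) (h2 : chkRelE T W S.G.rho Rs rel = true)
    (h3 : chkAllT T f m orb (rel.map fun p => p.1) 0 cert = true) (h4 : ∀ b ∈ Rs, chkE T W (b ++ b) [] = true)
    (h5 : ∀ b ∈ Rs, chkM T W S.G.rho b = true) {t : ↥E} (ht : t * t = 1) :
    ∃ b ∈ Rs, ∃ c : ↥E, (c : GL D.Idx K) * t * (c : GL D.Idx K)⁻¹ = XP g K b := by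
  obtain ⟨nk, hnk⟩ := R.exists_reps
  obtain ⟨P, p1, p2, p3⟩ := R.exists_BN hnk
  have hP : IsStdT R P nk := ⟨hnk, p1, p2, p3⟩
  unfold chkF at h1
  simp only [Bool.and_eq_true, List.all_eq_true, allB_iff, Nat.ble_eq, Nat.beq_eq] at h1
  obtain ⟨a1, a2, a3, a4⟩ := h1
  have hrel : ∀ p ∈ rel, VW T p.1 ∧ p.2.2 ∈ Rs ∧ chkM T W S.G.rho (expW T p.1) = true ∧
      chkPathE T W S.G.rho (expW T p.1) p.2.1 p.2.2 = true := by
    clear h3
    induction rel with
    | nil => intro p hp; simp at hp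
    | cons q rest ih =>
      rw [chkRelE, Bool.and_eq_true, Bool.and_eq_true, Bool.and_eq_true, Bool.and_eq_true, decide_eq_true_eq] at h2
      intro p hp
      rcases List.mem_cons.1 hp with rfl | hp
      · refine ⟨?_, h2.1.2.1, h2.1.2.2.1, h2.1.2.2.2⟩
        intro i hi
        have := List.all_eq_true.1 h2.1.1 i hi
        rw [Nat.ble_eq] at this
        exact this
      · exact ih h2.2 p hp
  have hΩ : ∀ ω ∈ rel.map (fun p => p.1), VW T ω := by
    intro ω hω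
    rw [List.mem_map] at hω
    obtain ⟨p, hp, rfl⟩ := hω
    exact (hrel p hp).1
  obtain ⟨c, n, hcn, hn, hnn, ω, hω, hωn⟩ := redT hP (fun i hi => a1 i hi) a2 a3 a4 hΩ h3 ht
  rw [List.mem_map] at hω
  obtain ⟨p, hp, rfl⟩ := hω
  obtain ⟨b1, b2, b3, b4⟩ := hrel p hp
  obtain ⟨d, hdE, hd⟩ := path_soundE R _ _ _ b4
  have hxE := chkM_mem R b3
  have hbE := chkM_mem R (h5 _ b2)
  rw [← nw_eq g] at hd hxE
  have hsq : XP g K p.2.2 * XP g K p.2.2 = 1 := by
    have := XP_eq g (F := K) (h4 _ b2)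
    rw [XP_append] at this
    exact this
  have h6 : (⟨g.nw p.1, hxE⟩ : ↥E) * ⟨g.nw p.1, hxE⟩ = 1 := by
    apply Subtype.ext
    show g.nw p.1 * g.nw p.1 = 1
    have e : g.nw (F := K) p.1 = d⁻¹ * XP g K p.2.2 * d := by rw [← hd]; group
    rw [e]
    have e2 : d⁻¹ * XP g K p.2.2 * d * (d⁻¹ * XP g K p.2.2 * d) = d⁻¹ * (XP g K p.2.2 * XP g K p.2.2) * d := by group
    rw [e2, hsq]; group
  have hwd : Wd g ((⟨g.nw p.1, hxE⟩ : ↥E) : GL D.Idx K) p.1 := ⟨b1, 1, Subgroup.one_mem _, by simp⟩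
  obtain ⟨e, he⟩ := conj_H hP.spl (hP.mem_N_of hwd) hn h6 hnn ((hP.eqv_iff hwd hωn).2 fun r _ => rfl)
  refine ⟨p.2.2, b2, (⟨d, hdE⟩ : ↥E) * e⁻¹ * c, ?_⟩
  have e1 : (⟨d, hdE⟩ : ↥E) * e⁻¹ * c * t * ((⟨d, hdE⟩ : ↥E) * e⁻¹ * c)⁻¹ = ⟨d, hdE⟩ * (e⁻¹ * (c * t * c⁻¹) * e) * (⟨d, hdE⟩ : ↥E)⁻¹ := by
    group
  have e3 : (⟨d, hdE⟩ : ↥E) * e⁻¹ * c * t * ((⟨d, hdE⟩ : ↥E) * e⁻¹ * c)⁻¹ = ⟨XP g K p.2.2, hbE⟩ := by
    rw [e1, hcn, ← he]
    apply Subtype.ext
    show d * ((e : GL D.Idx K)⁻¹ * ((e : GL D.Idx K) * g.nw p.1 * (e : GL D.Idx K)⁻¹) * (e : GL D.Idx K)) * d⁻¹ =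
      XP g K p.2.2
    rw [← hd]; group
  exact congrArg Subtype.val e3

theorem countT [CharP K 2] {R' : List (List ℕ)} {W : ℕ}
    (hcl : ∀ t : ↥E, t * t = 1 → ∃ b ∈ ([] :: R'), ∃ c : ↥E, (c : GL D.Idx K) * t * (c : GL D.Idx K)⁻¹ = XP g K b)
    (hsq : ∀ b ∈ R', chkE T W (b ++ b) [] = true) (hm : ∀ b ∈ R', chkM T W S.G.rho b = true) (hne : ∀ b ∈ R', XP g K b ≠ 1)
    (hpair : ∀ b₁ ∈ R', ∀ b₂ ∈ R', (∃ h ∈ D.group K, h * XP g K b₁ * h⁻¹ = XP g K b₂) → b₁ = b₂) (hnd : R'.Nodup) :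
    (ConjClasses.mk '' {g : ↥E | orderOf g = 2}).ncard = R'.length := by
  classical
  have hE : ∀ b ∈ R', XP g K b ∈ E := fun b hb => chkM_mem R (hm b hb)
  let Y : List ℕ → ↥E := fun b => if h : XP g K b ∈ E then ⟨XP g K b, h⟩ else 1
  have hY : ∀ b ∈ R', ((Y b : ↥E) : GL D.Idx K) = XP g K b := by
    intro b hb
    have := hE b hb
    simp only [Y, dif_pos this]
  have h1 : (ConjClasses.mk '' {g : ↥E | orderOf g = 2}) =
      (fun b => ConjClasses.mk (Y b)) '' (R'.toFinset : Set (List ℕ)) := by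
    ext c
    constructor
    · rintro ⟨t, ht, rfl⟩
      have h1 : t * t = 1 := by
        rw [← pow_two, ← (show orderOf t = 2 from ht), pow_orderOf_eq_one]
      obtain ⟨b, hb, c, hc⟩ := hcl t h1
      rcases List.mem_cons.1 hb with rfl | hb
      · exfalso
        rw [XP_nil] at hc
        have h2 : c * t * c⁻¹ = 1 := Subtype.ext hc
        have : t = 1 := by
          have e : t = c⁻¹ * (c * t * c⁻¹) * c := by group
          rw [e, h2]; group
        rw [this] at ht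
        have h4 : orderOf (1 : ↥E) = 2 := ht
        rw [orderOf_one] at h4
        omega
      · refine ⟨b, by simpa using hb, ?_⟩
        show ConjClasses.mk (Y b) = ConjClasses.mk t
        rw [ConjClasses.mk_eq_mk_iff_isConj, isConj_comm, isConj_iff]
        refine ⟨c, Subtype.ext ?_⟩
        rw [hY b hb, ← hc]; rfl
    · rintro ⟨b, hb, rfl⟩
      have hb' : b ∈ R' := by simpa using hb
      refine ⟨Y b, ?_, rfl⟩
      have h1 := XP_eq g (F := K) (hsq b hb')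
      rw [XP_append, XP_nil] at h1
      show orderOf (Y b) = 2
      apply orderOf_eq_prime
      · rw [pow_two]; apply Subtype.ext
        rw [Subgroup.coe_mul, hY b hb']; exact h1
      · intro h
        apply hne b hb'
        rw [← hY b hb', h]; rfl
  rw [h1, Set.ncard_image_of_injOn, Set.ncard_coe_finset, List.toFinset_card_of_nodup hnd]
  intro b₁ h₁ b₂ h₂ e
  have e' : ConjClasses.mk (Y b₁) = ConjClasses.mk (Y b₂) := e
  have h₁' : b₁ ∈ R' := by simpa using h₁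
  have h₂' : b₂ ∈ R' := by simpa using h₂
  rw [ConjClasses.mk_eq_mk_iff_isConj, isConj_iff] at e'
  obtain ⟨c, hc⟩ := e'
  refine hpair b₁ h₁' b₂ h₂' ⟨c, R.E_le_G c.2, ?_⟩
  rw [← hY b₁ h₁', ← hY b₂ h₂', ← hc]; rfl

end CfsgLib.Inv
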