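import Mathlib
import Cfsg.Agent.LibInvT4
import Cfsg.Agent.LibTwD4

set_option autoImplicit false
set_option linter.all false
set_option maxRecDepth 100000

/-! certificates for the involutions of the twisted group of type D4 in characteristic two -/

namespace CfsgLib.Inv

open Cfsg Matrix CfsgLib.BN CfsgLib.Chev Cfsg.Lie

def fTD4 (r : ℕ) : ℕ := Nat.sub 23 r

def w0TD4 : List ℕ := [0,1,0,2,1,0,3,1,0,2,1,3]

def relTD4 : List (List ℕ × List (List ℕ × List ℕ) × List ℕ) := [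
  ([3,1,2,0,1,3,0,1,2,0,1,0], [([9,6,3,2],[14,17,20,21]),([15,16,19,5,10,11],[17,20,21])], [17,20,21]),
  ([3,1,2,0,1,3,0,1,2,1,0], [([6,3,2],[17,20,21])], [17,20,21]),
  ([1,2,0,1,3,1,2,0,1], [([0],[23])], [23]),
  ([], [], [])
]

def certTD4 : List (List ℕ × List ℕ × ℕ) := [
  ([], [], 0),
  ([0], [], 1),
  ([1], [], 2),
  ([0,1,0,1,0,1], [], 3)
]

def RTD4 : List (List ℕ) := [[23], [17,20,21]]

def LTD4 : List (List ℕ × ℕ) := [([23], 10), ([17,20,21], 12)]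

theorem chkF_TD4 : chkF tD4 fTD4 w0TD4 = true := by decide +kernel

theorem chkRelE_TD4 : chkRelE tD4 32 gdD4a.rho ([] :: RTD4) relTD4 = true := by decide +kernel

theorem chkAllT_TD4 : chkAllT tD4 fTD4 2 TwD4.orb (relTD4.map fun p => p.1) 0 certTD4 = true := by decide +kernel

theorem sq_TD4 : ∀ b ∈ ([] :: RTD4), chkE tD4 32 (b ++ b) [] = true := by
  have h : (([] :: RTD4).all fun b => chkE tD4 32 (b ++ b) []) = true := by decide +kernel
  intro b hb
  exact List.all_eq_true.1 h b hb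

theorem mem_TD4 : ∀ b ∈ ([] :: RTD4), chkM tD4 32 gdD4a.rho b = true := by
  have h : (([] :: RTD4).all fun b => chkM tD4 32 gdD4a.rho b) = true := by decide +kernel
  intro b hb
  exact List.all_eq_true.1 h b hb

theorem rk_TD4 : ∀ p ∈ LTD4, chkRk tD4 32 (2 ^ (tD4.n + tD4.l) - 1) p.1 p.2 = true := by
  have h : (LTD4.all fun p => chkRk tD4 32 (2 ^ (tD4.n + tD4.l) - 1) p.1 p.2) = true := by decide +kernel
  intro b hb
  exact List.all_eq_true.1 h b hb

theorem cl_TD4 {K : Type*} [Field K] [Fintype K] [CharP K 2] {f : K ≃+* K} {E : Subgroup (GL chevD4.Idx K)} {q δ : ℕ}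
    (R : TwR2 (TwD4.S f) 2 TwD4.orb E q δ) (t : ↥E) (ht : t * t = 1) :
    ∃ b ∈ ([] :: RTD4), ∃ c : ↥E, (c : GL chevD4.Idx K) * t * (c : GL chevD4.Idx K)⁻¹ = XP good3_D4 K b :=
  classifyT R chkF_TD4 chkRelE_TD4 chkAllT_TD4 sq_TD4 mem_TD4 ht

end CfsgLib.Inv
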