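import Mathlib
import Cfsg.Agent.LibInvTE6
import Cfsg.Agent.LibEvalP

set_option autoImplicit false
set_option linter.all false
set_option maxRecDepth 100000

/-! the extra fusion in the groups of type 2E6 -/

namespace CfsgLib.Inv

open Cfsg Matrix CfsgLib.BN CfsgLib.Chev Cfsg.Lie

theorem rE : gdE6.rho 50 = 48 ∧ gdE6.rho 48 = 50 ∧ gdE6.lam 50 = 1 ∧ gdE6.lam 48 = 1 := by decide +kernel

theorem cE1 : chkWordsP 2 tE6.acc [(50, [((1, 1, 0) : Mon)]), (48, [(1, 0, 1)]), (71, [(1, 1, 0), (1, 0, 1)]), (66, [(1, 0, 0)]), (68, [(1, 0, 0)])]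
    [(66, [((1, 0, 0) : Mon)]), (68, [(1, 0, 0)]), (50, [(1, 1, 0)]), (48, [(1, 0, 1)])] = true := by decide +kernel

theorem cE2 : chkWordsP 2 tE6.acc [(50, [((1, 1, 0) : Mon)]), (48, [(1, 0, 1)])] [(48, [((1, 0, 1) : Mon)]), (50, [(1, 1, 0)])] = true := by
  decide +kernel

section
variable {K : Type*} [Field K] [Fintype K] [CharP K 2]

theorem exists_trace {q : ℕ} (hK : Fintype.card K = q ^ 2) (hq : 1 < q) (f : K ≃+* K) (hf : ∀ t, f t = t ^ q) : ∃ c : K, c + f c = 1 := by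
  have hff : ∀ t, f (f t) = t := by
    intro t
    rw [hf, hf, ← pow_mul, ← pow_two, ← hK, FiniteField.pow_card]
  -- some c0 is not fixed
  obtain ⟨c0, hc0⟩ : ∃ c0 : K, f c0 ≠ c0 := by
    by_contra hcon
    push Not at hcon
    classical
    have h1 : Fintype.card K ≤ q := by
      have h2 : (Finset.univ : Finset K) ⊆ (Polynomial.X ^ q - Polynomial.X : Polynomial K).roots.toFinset := by
        intro x _
        rw [Multiset.mem_toFinset, Polynomial.mem_roots (FiniteField.X_pow_card_sub_X_ne_zero K hq)]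
        simp only [Polynomial.IsRoot.def, Polynomial.eval_sub, Polynomial.eval_pow, Polynomial.eval_X]
        rw [← hf, hcon, sub_self]
      calc Fintype.card K = (Finset.univ : Finset K).card := rfl
        _ ≤ _ := Finset.card_le_card h2
        _ ≤ Multiset.card (Polynomial.X ^ q - Polynomial.X : Polynomial K).roots := Multiset.toFinset_card_le _
        _ ≤ (Polynomial.X ^ q - Polynomial.X : Polynomial K).natDegree := Polynomial.card_roots' _
        _ = q := FiniteField.X_pow_card_sub_X_natDegree_eq K hq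
    rw [hK] at h1
    nlinarith
  have hd : c0 + f c0 ≠ 0 := by
    intro h
    apply hc0
    have := CharTwo.add_eq_zero.1 h
    exact this.symm
  refine ⟨c0 / (c0 + f c0), ?_⟩
  rw [map_div₀, map_add, hff, add_comm (f c0) c0, ← add_div, div_self hd]

theorem fuse {f : K ≃+* K} {E : Subgroup (GL chevE6.Idx K)} {q q' δ : ℕ} (R : TwR2 (TwE6.S f) 4 TwE6.orb E q' δ)
    (hK : Fintype.card K = q ^ 2) (hq : 1 < q) (hf : ∀ t, f t = t ^ q) :
    ∃ y ∈ E, y * XP good3_E6 K [71, 66, 68] * y⁻¹ = XP good3_E6 K [66, 68] := by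
  obtain ⟨c, hc⟩ := exists_trace hK hq f hf
  have hff : ∀ t, f (f t) = t := by
    intro t
    rw [hf, hf, ← pow_mul, ← pow_two, ← hK, FiniteField.pow_card]
  have hp : ((2 : ℕ) : K) = 0 := CharP.cast_eq_zero K 2
  have h1 := good3_E6.wd_eq_of_chk2 hp c (f c) cE1
  have h2 := good3_E6.wd_eq_of_chk2 hp c (f c) cE2
  have h1' : good3_E6.X 50 c * (good3_E6.X 48 (f c) * (good3_E6.X 71 (c + f c) * (good3_E6.X 66 1 * good3_E6.X 68 1))) =
      good3_E6.X 66 1 * (good3_E6.X 68 1 * (good3_E6.X 50 c * good3_E6.X 48 (f c))) := by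
    simpa [Good3.wd, pev, mev] using h1
  have h2' : good3_E6.X 50 c * good3_E6.X 48 (f c) = good3_E6.X 48 (f c) * good3_E6.X 50 c := by
    simpa [Good3.wd, pev, mev] using h2
  rw [hc] at h1'
  refine ⟨good3_E6.X 50 c * good3_E6.X 48 (f c), ?_, ?_⟩
  · rw [R.toTwR.E_eq]
    refine ⟨Subgroup.mul_mem _ (good3_E6.X_mem_G _ _) (good3_E6.X_mem_G _ _), ?_⟩
    have hG : (TwE6.S f).G = gdE6 := rfl
    have hF : ∀ t, (TwE6.S f).f t = f t := fun t => rfl
    obtain ⟨r1, r2, r3, r4⟩ := rE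
    have heps : ∀ r : ℕ, ((gdE6.eps r : ℤ) : K) = 1 := by
      intro r
      rcases gdE6.eps_cases r with h | h <;> rw [h]
      · simp
      · push_cast; exact CharTwo.neg_eq 1
    rw [(TwE6.S f).s_mul (good3_E6.X_mem_G _ _) (good3_E6.X_mem_G _ _), (TwE6.S f).s_X (by decide), (TwE6.S f).s_X (by decide), hG,
      r1, r2, r3, r4, pow_one, pow_one, heps, heps, hF, hF, one_mul, one_mul, hff, h2']
  · have e : XP good3_E6 K [71, 66, 68] = good3_E6.X 71 1 * (good3_E6.X 66 1 * good3_E6.X 68 1) := by simp [XP]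
    have e2 : XP good3_E6 K [66, 68] = good3_E6.X 66 1 * good3_E6.X 68 1 := by simp [XP]
    rw [e, e2, mul_inv_eq_iff_eq_mul]
    simp only [mul_assoc] at h1' ⊢
    exact h1'

def RE6t : List (List ℕ) := [[71], [66, 68], [54, 64, 69]]

def LE6t : List (List ℕ × ℕ) := [([71], 22), ([66, 68], 32), ([54, 64, 69], 38)]

theorem cl_TE6' {f : K ≃+* K} {E : Subgroup (GL chevE6.Idx K)} {q q' δ : ℕ} (R : TwR2 (TwE6.S f) 4 TwE6.orb E q' δ)
    (hK : Fintype.card K = q ^ 2) (hq : 1 < q) (hf : ∀ t, f t = t ^ q) (t : ↥E) (ht : t * t = 1) :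
    ∃ b ∈ ([] :: RE6t), ∃ c : ↥E, (c : GL chevE6.Idx K) * t * (c : GL chevE6.Idx K)⁻¹ = XP good3_E6 K b := by
  obtain ⟨b, hb, c, hc⟩ := cl_TE6 R t ht
  by_cases h : b = [71, 66, 68]
  · subst h
    obtain ⟨y, hy, e⟩ := fuse R hK hq hf
    refine ⟨[66, 68], by decide, ⟨y, hy⟩ * c, ?_⟩
    rw [← e, ← hc]
    show y * (c : GL chevE6.Idx K) * t * (y * (c : GL chevE6.Idx K))⁻¹ = _
    group
  · refine ⟨b, ?_, c, hc⟩
    simp only [RTE6, RE6t, List.mem_cons, List.not_mem_nil, or_false] at hb ⊢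
    tauto

end

end CfsgLib.Inv
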