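import Mathlib
import Cfsg.Agent.LibInvT4
import Cfsg.Agent.LibTwF4x

set_option autoImplicit false
set_option linter.all false
set_option maxRecDepth 100000

/-! certificates for the involutions of the twisted group of type F4 in characteristic two -/

namespace CfsgLib.Inv

open Cfsg Matrix CfsgLib.BN CfsgLib.Chev Cfsg.Lie

def fTF4 (r : ℕ) : ℕ := Nat.sub 47 r

def w0TF4 : List ℕ := [0,1,0,2,1,0,2,1,2,3,2,1,0,2,1,2,3,2,1,0,2,1,2,3]

def relTF4 : List (List ℕ × List (List ℕ × List ℕ) × List ℕ) := [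
  ([3,2,1,2,0,1,2,3,2,1,2,0,1,2,3,2,1,2,0,1,2,0,1,0], [([15,10,9,4],[32,37,38,43]),([26,34,36,20,22,17,14,23],[39,45])], [39,45]),
  ([2,1,2,0,1,2,3,2,1,2,0,1,2,3,2,1,2,0,1,2,0,1], [([8,2],[39,45])], [39,45]),
  ([3,2,1,2,0,1,2,3,2,1,2,0,1,2,3,0,1,2,1,0], [([0,18,6],[47,44])], [47,44]),
  ([], [], [])
]

def certTF4 : List (List ℕ × List ℕ × ℕ) := [
  ([], [], 0),
  ([0], [], 1),
  ([1], [], 2),
  ([0,1,0,1,0,1,0,1], [], 3)
]

def RTF4 : List (List ℕ) := [[47,44], [39,45]]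

def LTF4 : List (List ℕ × ℕ) := [([47,44], 21), ([39,45], 24)]

theorem chkF_TF4 : chkF tF4 fTF4 w0TF4 = true := by decide +kernel

theorem chkRelE_TF4 : chkRelE tF4 64 gdF4.rho ([] :: RTF4) relTF4 = true := by decide +kernel

theorem chkAllT_TF4 : chkAllT tF4 fTF4 2 TwF4x.orb (relTF4.map fun p => p.1) 0 certTF4 = true := by decide +kernel

theorem sq_TF4 : ∀ b ∈ ([] :: RTF4), chkE tF4 64 (b ++ b) [] = true := by
  have h : (([] :: RTF4).all fun b => chkE tF4 64 (b ++ b) []) = true := by decide +kernel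
  intro b hb
  exact List.all_eq_true.1 h b hb

theorem mem_TF4 : ∀ b ∈ ([] :: RTF4), chkM tF4 64 gdF4.rho b = true := by
  have h : (([] :: RTF4).all fun b => chkM tF4 64 gdF4.rho b) = true := by decide +kernel
  intro b hb
  exact List.all_eq_true.1 h b hb

theorem rk_TF4 : ∀ p ∈ LTF4, chkRk tF4 64 (2 ^ (tF4.n + tF4.l) - 1) p.1 p.2 = true := by
  have h : (LTF4.all fun p => chkRk tF4 64 (2 ^ (tF4.n + tF4.l) - 1) p.1 p.2) = true := by decide +kernel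
  intro b hb
  exact List.all_eq_true.1 h b hb

theorem cl_TF4 {K : Type*} [Field K] [Fintype K] [CharP K 2] {f : K ≃+* K} {E : Subgroup (GL chevF4.Idx K)} {q δ : ℕ}
    (R : TwR2 (TwF4x.S f) 2 TwF4x.orb E q δ) (t : ↥E) (ht : t * t = 1) :
    ∃ b ∈ ([] :: RTF4), ∃ c : ↥E, (c : GL chevF4.Idx K) * t * (c : GL chevF4.Idx K)⁻¹ = XP good3_F4 K b :=
  classifyT R chkF_TF4 chkRelE_TF4 chkAllT_TF4 sq_TF4 mem_TF4 ht

end CfsgLib.Inv
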