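import Mathlib
import Cfsg.Agent.LibInvTF4

set_option autoImplicit false
set_option linter.all false
set_option maxRecDepth 100000

/-! the group 2F4(2) -/

namespace CfsgLib.Inv

open Cfsg Matrix CfsgLib.BN CfsgLib.Chev Cfsg.Lie
open scoped commutatorElement

theorem exists_R0 : ∃ f : ZMod 2 ≃+* ZMod 2, TwR2 (TwF4x.S f) 2 TwF4x.orb (twistedF4 (ZMod 2) 1) 2 2 := by
  haveI : Fact (Nat.Prime 2) := ⟨Nat.prime_two⟩
  have hK : Fintype.card (ZMod 2) = 2 ^ (2 * 0 + 1) := by rw [ZMod.card]; norm_num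
  obtain ⟨f, hf⟩ := exists_frobp (ZMod 2) 2 0
  have h := TwF4x.R (K := ZMod 2) (m := 0) hf hK
  rw [pow_zero, ZMod.card] at h
  exact ⟨f, h⟩

theorem cF1 : (chkE tF4 64 ([47, 44] ++ ([40, 46] ++ [24, 33])) ([24, 33] ++ [40, 46]) &&
    (chkE tF4 64 ([39, 45] ++ ([31, 35, 40] ++ [29, 41, 44])) ([29, 41, 44] ++ [31, 35, 40]))) = true := by decide +kernel

theorem cF2 : ([[24, 33], [40, 46], [29, 41, 44], [31, 35, 40]].all fun w => chkM tF4 64 gdF4.rho w) = true := by decide +kernel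

theorem invol_mem (t : ↥(twistedF4 (ZMod 2) 1)) (ht : t * t = 1) : t ∈ commutator ↥(twistedF4 (ZMod 2) 1) := by
  obtain ⟨f, R⟩ := exists_R0
  have hm := List.all_eq_true.1 cF2
  have hE : ∀ w ∈ [[24, 33], [40, 46], [29, 41, 44], [31, 35, 40]], XP good3_F4 (ZMod 2) w ∈ twistedF4 (ZMod 2) 1 :=
    fun w hw => chkM_mem R (hm w hw)
  obtain ⟨b, hb, c, hc⟩ := cl_TF4 R t ht
  have h1 := cF1
  rw [Bool.and_eq_true] at h1
  have key : ∀ (a d b : List ℕ) (ha : XP good3_F4 (ZMod 2) a ∈ twistedF4 (ZMod 2) 1)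
      (hd : XP good3_F4 (ZMod 2) d ∈ twistedF4 (ZMod 2) 1), chkE tF4 64 (b ++ (d ++ a)) (a ++ d) = true →
      (c : GL chevF4.Idx (ZMod 2)) * t * (c : GL chevF4.Idx (ZMod 2))⁻¹ = XP good3_F4 (ZMod 2) b →
      t ∈ commutator ↥(twistedF4 (ZMod 2) 1) := by
    intro a d b ha hd h hc
    have h2 := XP_eq good3_F4 (F := ZMod 2) h
    rw [XP_append, XP_append, XP_append] at h2
    have h3 : XP good3_F4 (ZMod 2) b = XP good3_F4 (ZMod 2) a * XP good3_F4 (ZMod 2) d * (XP good3_F4 (ZMod 2) a)⁻¹ *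
        (XP good3_F4 (ZMod 2) d)⁻¹ := by
      have : XP good3_F4 (ZMod 2) b = (XP good3_F4 (ZMod 2) b * (XP good3_F4 (ZMod 2) d * XP good3_F4 (ZMod 2) a)) *
        (XP good3_F4 (ZMod 2) d * XP good3_F4 (ZMod 2) a)⁻¹ := by group
      rw [this, h2]; group
    have h4 : c * t * c⁻¹ = ⁅(⟨_, ha⟩ : ↥(twistedF4 (ZMod 2) 1)), ⟨_, hd⟩⁆ := by
      apply Subtype.ext
      rw [commutatorElement_def]
      show (c : GL chevF4.Idx (ZMod 2)) * t * (c : GL chevF4.Idx (ZMod 2))⁻¹ = _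
      rw [hc, h3]; rfl
    have h5 : ⁅(⟨_, ha⟩ : ↥(twistedF4 (ZMod 2) 1)), ⟨_, hd⟩⁆ ∈ commutator ↥(twistedF4 (ZMod 2) 1) :=
      Subgroup.commutator_mem_commutator (Subgroup.mem_top _) (Subgroup.mem_top _)
    rw [← h4] at h5
    have h6 : t = c⁻¹ * (c * t * c⁻¹) * c⁻¹⁻¹ := by group
    rw [h6]
    exact (inferInstance : (commutator ↥(twistedF4 (ZMod 2) 1)).Normal).conj_mem _ h5 c⁻¹
  simp only [RTF4, List.mem_cons, List.not_mem_nil, or_false] at hb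
  rcases hb with rfl | rfl | rfl
  · rw [XP_nil] at hc
    have h2 : c * t * c⁻¹ = 1 := Subtype.ext hc
    have : t = 1 := by
      have e : t = c⁻¹ * (c * t * c⁻¹) * c := by group
      rw [e, h2]; group
    rw [this]; exact Subgroup.one_mem _
  · exact key _ _ _ (hE _ (by decide)) (hE _ (by decide)) h1.1 hc
  · exact key _ _ _ (hE _ (by decide)) (hE _ (by decide)) h1.2 hc

end CfsgLib.Inv
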