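import Mathlib
import Cfsg.Agent.LibInvTF4b

set_option autoImplicit false
set_option linter.all false
set_option maxRecDepth 100000

/-! the Tits group -/

namespace CfsgLib.Inv

open Cfsg Matrix CfsgLib.BN CfsgLib.Chev Cfsg.Lie
open scoped commutatorElement

abbrev E0 : Subgroup (GL chevF4.Idx (ZMod 2)) := twistedF4 (ZMod 2) 1

theorem cF3 : ([[27, 25, 28], [27, 25, 30], [28, 30], [33, 24], [14, 23], [20, 22, 19], [20, 22, 17], [19, 17], [29, 41, 44],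
    [47, 44], [39, 45], [13, 21, 5, 36, 34, 26], [28, 27, 25, 17, 19]].all fun w => chkM tF4 64 gdF4.rho w) = true := by decide +kernel

theorem cF4 : ([([27, 25, 28] ++ [27, 25, 30], []), ([28, 30] ++ [28, 30], []), ([33, 24] ++ [33, 24], []), ([14, 23] ++ [14, 23], []),
    ([19, 17] ++ [19, 17], []), ([13, 21, 5, 36, 34, 26] ++ [27, 25, 28], [29, 41, 44] ++ [13, 21, 5, 36, 34, 26]),
    ([20, 22, 19] ++ [20, 22, 17], []),
    ([28, 27, 25, 17, 19] ++ [27, 25, 28], [20, 22, 19] ++ [28, 27, 25, 17, 19]),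
    ([27, 25, 28] ++ [47, 44], [47, 44] ++ [27, 25, 28]),
    ([29, 41, 44] ++ [39, 45], [39, 45] ++ [29, 41, 44])].all fun p => chkE tF4 64 p.1 p.2) = true := by decide +kernel

theorem memE0 {w : List ℕ} (h : chkM tF4 64 gdF4.rho w = true) : XP good3_F4 (ZMod 2) w ∈ E0 := by
  obtain ⟨f, R⟩ := exists_R0
  exact chkM_mem R h

/-- the image of a word in the abelianization -/
noncomputable def pi0 (w : List ℕ) : ↥E0 ⧸ commutator ↥E0 := by
  classical
  exact if h : XP good3_F4 (ZMod 2) w ∈ E0 then QuotientGroup.mk ⟨_, h⟩ else 1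

theorem pi0_eq {w : List ℕ} (h : XP good3_F4 (ZMod 2) w ∈ E0) : pi0 w = QuotientGroup.mk ⟨_, h⟩ := by
  unfold pi0; rw [dif_pos h]

theorem mk_comm (x y : ↥E0) : (QuotientGroup.mk (x * y) : ↥E0 ⧸ commutator ↥E0) = QuotientGroup.mk (y * x) := by
  rw [QuotientGroup.eq]
  have : (x * y)⁻¹ * (y * x) = ⁅y⁻¹, x⁻¹⁆ := by rw [commutatorElement_def]; group
  rw [this]
  exact Subgroup.commutator_mem_commutator (Subgroup.mem_top _) (Subgroup.mem_top _)

theorem pi0_conj {a b d : List ℕ} (ha : XP good3_F4 (ZMod 2) a ∈ E0) (hb : XP good3_F4 (ZMod 2) b ∈ E0)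
    (hd : XP good3_F4 (ZMod 2) d ∈ E0) (h : chkE tF4 64 (d ++ a) (b ++ d) = true) : pi0 a = pi0 b := by
  have h1 := XP_eq good3_F4 (F := ZMod 2) h
  rw [XP_append, XP_append] at h1
  rw [pi0_eq ha, pi0_eq hb]
  have h2 : (⟨_, hd⟩ : ↥E0) * ⟨_, ha⟩ = ⟨_, hb⟩ * ⟨_, hd⟩ := Subtype.ext h1
  have h3 : (QuotientGroup.mk ((⟨_, ha⟩ : ↥E0) * ⟨_, hd⟩) : ↥E0 ⧸ commutator ↥E0) = QuotientGroup.mk (⟨_, hb⟩ * ⟨_, hd⟩) := by
    rw [mk_comm, h2]
  rw [QuotientGroup.mk_mul, QuotientGroup.mk_mul] at h3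
  exact mul_right_cancel h3

theorem pi0_inv {a b : List ℕ} (ha : XP good3_F4 (ZMod 2) a ∈ E0) (hb : XP good3_F4 (ZMod 2) b ∈ E0)
    (h : chkE tF4 64 (a ++ b) [] = true) : pi0 b = (pi0 a)⁻¹ := by
  have h1 := XP_eq good3_F4 (F := ZMod 2) h
  rw [XP_append, XP_nil] at h1
  rw [pi0_eq ha, pi0_eq hb, eq_inv_iff_mul_eq_one, ← QuotientGroup.mk_mul]
  have h2 : (⟨_, hb⟩ : ↥E0) * ⟨_, ha⟩ = 1 := Subtype.ext (mul_eq_one_iff_eq_inv.2 (eq_inv_of_mul_eq_one_right h1))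
  rw [h2]; rfl

theorem pi0_sq {a : List ℕ} (ha : XP good3_F4 (ZMod 2) a ∈ E0) (h : chkE tF4 64 (a ++ a) [] = true) : pi0 a = 1 := by
  have h1 := XP_eq good3_F4 (F := ZMod 2) h
  rw [XP_append, XP_nil] at h1
  rw [pi0_eq ha, QuotientGroup.eq_one_iff]
  exact invol_mem _ (Subtype.ext h1)

/-- the quotient is generated by the image of `u` -/
theorem gen0 (x : ↥E0) : (QuotientGroup.mk x : ↥E0 ⧸ commutator ↥E0) ∈ Subgroup.zpowers (pi0 [27, 25, 28]) := by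
  have hm := List.all_eq_true.1 cF3
  have hE : ∀ w ∈ [[27, 25, 28], [27, 25, 30], [28, 30], [33, 24], [14, 23], [20, 22, 19], [20, 22, 17], [19, 17], [29, 41, 44],
    [47, 44], [39, 45], [13, 21, 5, 36, 34, 26], [28, 27, 25, 17, 19]], XP good3_F4 (ZMod 2) w ∈ E0 := fun w hw => memE0 (hm w hw)
  have hc := List.all_eq_true.1 cF4
  let M : Subgroup ↥E0 := (Subgroup.zpowers (pi0 [27, 25, 28])).comap (QuotientGroup.mk' (commutator ↥E0))
  suffices H : E0 ≤ M.map E0.subtype by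
    obtain ⟨y, hy, e⟩ := H x.2
    have : y = x := Subtype.ext e
    rw [← this]; exact hy
  have hword : ∀ w : List ℕ, (hw : XP good3_F4 (ZMod 2) w ∈ E0) → pi0 w ∈ Subgroup.zpowers (pi0 [27, 25, 28]) →
      XP good3_F4 (ZMod 2) w ∈ M.map E0.subtype := by
    intro w hw h
    refine ⟨⟨_, hw⟩, ?_, rfl⟩
    show (QuotientGroup.mk (⟨_, hw⟩ : ↥E0) : ↥E0 ⧸ commutator ↥E0) ∈ Subgroup.zpowers (pi0 [27, 25, 28])
    rw [← pi0_eq hw]; exact h
  have hz := Subgroup.mem_zpowers (pi0 [27, 25, 28])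
  have e1 : pi0 [27, 25, 30] = (pi0 [27, 25, 28])⁻¹ := pi0_inv (hE _ (by simp)) (hE _ (by simp))
    (hc ([27, 25, 28] ++ [27, 25, 30], []) (by simp))
  have e2 : pi0 [28, 30] = 1 := pi0_sq (hE _ (by simp)) (hc ([28, 30] ++ [28, 30], []) (by simp))
  have e3 : pi0 [33, 24] = 1 := pi0_sq (hE _ (by simp)) (hc ([33, 24] ++ [33, 24], []) (by simp))
  have e4 : pi0 [14, 23] = 1 := pi0_sq (hE _ (by simp)) (hc ([14, 23] ++ [14, 23], []) (by simp))
  have e5 : pi0 [19, 17] = 1 := pi0_sq (hE _ (by simp)) (hc ([19, 17] ++ [19, 17], []) (by simp))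
  have e6 : pi0 [27, 25, 28] = pi0 [20, 22, 19] := pi0_conj (d := [28, 27, 25, 17, 19]) (hE _ (by simp)) (hE _ (by simp)) (hE _ (by simp))
    (hc ([28, 27, 25, 17, 19] ++ [27, 25, 28], [20, 22, 19] ++ [28, 27, 25, 17, 19]) (by simp))
  have e7 : pi0 [20, 22, 17] = (pi0 [20, 22, 19])⁻¹ := pi0_inv (hE _ (by simp)) (hE _ (by simp))
    (hc ([20, 22, 19] ++ [20, 22, 17], []) (by simp))
  have hone : (1 : GL chevF4.Idx (ZMod 2)) ∈ M.map E0.subtype := Subgroup.one_mem _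
  have h01 : ∀ t : ZMod 2, t = 0 ∨ t = 1 := by decide
  apply good3_F4.genSub_le
  rintro w (⟨t, rfl | rfl⟩ | ⟨t, u, rfl | rfl⟩)
  · rcases h01 t with rfl | rfl
    · have : good3_F4.wd (f4PairWord 1 f4p1 f4p4 (0 : ZMod 2)) = 1 := by simp [Good3.wd, f4PairWord, good3_F4.X_zero]
      rw [this]; exact hone
    · have : good3_F4.wd (f4PairWord 1 f4p1 f4p4 (1 : ZMod 2)) = XP good3_F4 (ZMod 2) [33, 24] := by
        simp [Good3.wd, f4PairWord, f4p1, f4p4, XP]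
      rw [this]; exact hword _ (hE _ (by simp)) (by rw [e3]; exact Subgroup.one_mem _)
  · rcases h01 t with rfl | rfl
    · have : good3_F4.wd (f4PairWord 1 f4m1 f4m4 (0 : ZMod 2)) = 1 := by simp [Good3.wd, f4PairWord, good3_F4.X_zero]
      rw [this]; exact hone
    · have : good3_F4.wd (f4PairWord 1 f4m1 f4m4 (1 : ZMod 2)) = XP good3_F4 (ZMod 2) [14, 23] := by
        simp [Good3.wd, f4PairWord, f4m1, f4m4, XP]
      rw [this]; exact hword _ (hE _ (by simp)) (by rw [e4]; exact Subgroup.one_mem _)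
  · have h11 : (1 : ZMod 2) + 1 = 0 := by decide
    rcases h01 t with rfl | rfl <;> rcases h01 u with rfl | rfl
    · have : good3_F4.wd (b2ClassWord 1 f4a f4b f4ab f4aab (0 : ZMod 2) 0) = 1 := by simp [Good3.wd, b2ClassWord, good3_F4.X_zero]
      rw [this]; exact hone
    · have : good3_F4.wd (b2ClassWord 1 f4a f4b f4ab f4aab (0 : ZMod 2) 1) = XP good3_F4 (ZMod 2) [28, 30] := by
        simp [Good3.wd, b2ClassWord, f4a, f4b, f4ab, f4aab, XP, good3_F4.X_zero]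
      rw [this]; exact hword _ (hE _ (by simp)) (by rw [e2]; exact Subgroup.one_mem _)
    · have : good3_F4.wd (b2ClassWord 1 f4a f4b f4ab f4aab (1 : ZMod 2) 0) = XP good3_F4 (ZMod 2) [27, 25, 28] := by
        simp [Good3.wd, b2ClassWord, f4a, f4b, f4ab, f4aab, XP, good3_F4.X_zero]
      rw [this]; exact hword _ (hE _ (by simp)) hz
    · have : good3_F4.wd (b2ClassWord 1 f4a f4b f4ab f4aab (1 : ZMod 2) 1) = XP good3_F4 (ZMod 2) [27, 25, 30] := by
        simp [Good3.wd, b2ClassWord, f4a, f4b, f4ab, f4aab, XP, h11, good3_F4.X_zero]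
      rw [this]; exact hword _ (hE _ (by simp)) (by rw [e1]; exact Subgroup.inv_mem _ hz)
  · have h11 : (1 : ZMod 2) + 1 = 0 := by decide
    rcases h01 t with rfl | rfl <;> rcases h01 u with rfl | rfl
    · have : good3_F4.wd (b2ClassWord 1 f4ma f4mb f4mab f4maab (0 : ZMod 2) 0) = 1 := by simp [Good3.wd, b2ClassWord, good3_F4.X_zero]
      rw [this]; exact hone
    · have : good3_F4.wd (b2ClassWord 1 f4ma f4mb f4mab f4maab (0 : ZMod 2) 1) = XP good3_F4 (ZMod 2) [19, 17] := by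
        simp [Good3.wd, b2ClassWord, f4ma, f4mb, f4mab, f4maab, XP, good3_F4.X_zero]
      rw [this]; exact hword _ (hE _ (by simp)) (by rw [e5]; exact Subgroup.one_mem _)
    · have : good3_F4.wd (b2ClassWord 1 f4ma f4mb f4mab f4maab (1 : ZMod 2) 0) = XP good3_F4 (ZMod 2) [20, 22, 19] := by
        simp [Good3.wd, b2ClassWord, f4ma, f4mb, f4mab, f4maab, XP, good3_F4.X_zero]
      rw [this]; exact hword _ (hE _ (by simp)) (by rw [← e6]; exact hz)
    · have : good3_F4.wd (b2ClassWord 1 f4ma f4mb f4mab f4maab (1 : ZMod 2) 1) = XP good3_F4 (ZMod 2) [20, 22, 17] := by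
        simp [Good3.wd, b2ClassWord, f4ma, f4mb, f4mab, f4maab, XP, h11, good3_F4.X_zero]
      rw [this]; exact hword _ (hE _ (by simp)) (by rw [e7, ← e6]; exact Subgroup.inv_mem _ hz)

/-- every representative is centralized by an element congruent to `u` -/
theorem cent0 {b : List ℕ} (hb : b ∈ RTF4) : ∃ z : ↥E0, (QuotientGroup.mk z : ↥E0 ⧸ commutator ↥E0) = pi0 [27, 25, 28] ∧
    (z : GL chevF4.Idx (ZMod 2)) * XP good3_F4 (ZMod 2) b = XP good3_F4 (ZMod 2) b * z := by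
  have hm := List.all_eq_true.1 cF3
  have hE : ∀ w ∈ [[27, 25, 28], [27, 25, 30], [28, 30], [33, 24], [14, 23], [20, 22, 19], [20, 22, 17], [19, 17], [29, 41, 44],
    [47, 44], [39, 45], [13, 21, 5, 36, 34, 26], [28, 27, 25, 17, 19]], XP good3_F4 (ZMod 2) w ∈ E0 := fun w hw => memE0 (hm w hw)
  have hc := List.all_eq_true.1 cF4
  simp only [RTF4, List.mem_cons, List.not_mem_nil, or_false] at hb
  rcases hb with rfl | rfl
  · refine ⟨⟨_, hE [27, 25, 28] (by simp)⟩, (pi0_eq _).symm, ?_⟩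
    have := XP_eq good3_F4 (F := ZMod 2) (hc ([27, 25, 28] ++ [47, 44], [47, 44] ++ [27, 25, 28]) (by simp))
    rw [XP_append, XP_append] at this
    exact this
  · refine ⟨⟨_, hE [29, 41, 44] (by simp)⟩, ?_, ?_⟩
    · rw [← pi0_eq]
      exact (pi0_conj (d := [13, 21, 5, 36, 34, 26]) (hE _ (by simp)) (hE _ (by simp)) (hE _ (by simp))
        (hc ([13, 21, 5, 36, 34, 26] ++ [27, 25, 28], [29, 41, 44] ++ [13, 21, 5, 36, 34, 26]) (by simp))).symm
    · have := XP_eq good3_F4 (F := ZMod 2) (hc ([29, 41, 44] ++ [39, 45], [39, 45] ++ [29, 41, 44]) (by simp))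
      rw [XP_append, XP_append] at this
      exact this

theorem conj_key {G : Type*} [Group G] (Z C T B : G) (h1 : C * T * C⁻¹ = B) (h2 : Z * B = B * Z) :
    (Z⁻¹ * C) * T * (Z⁻¹ * C)⁻¹ = B := by
  have e : (Z⁻¹ * C) * T * (Z⁻¹ * C)⁻¹ = Z⁻¹ * (C * T * C⁻¹) * Z := by group
  rw [e, h1, mul_assoc, ← h2]; group

/-- classes in the Tits group -/
theorem clT (t : ↥(commutator ↥E0)) (ht : t * t = 1) : ∃ b ∈ ([] :: RTF4), ∃ c : ↥(commutator ↥E0),
    ((c : ↥E0) : GL chevF4.Idx (ZMod 2)) * ((t : ↥E0) : GL chevF4.Idx (ZMod 2)) * ((c : ↥E0) : GL chevF4.Idx (ZMod 2))⁻¹ =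
      XP good3_F4 (ZMod 2) b := by
  obtain ⟨f, R⟩ := exists_R0
  have ht' : (t : ↥E0) * (t : ↥E0) = 1 := by rw [← Subgroup.coe_mul, ht, Subgroup.coe_one]
  obtain ⟨b, hb, c, hc⟩ := cl_TF4 R (t : ↥E0) ht'
  refine ⟨b, hb, ?_⟩
  rcases List.mem_cons.1 hb with rfl | hb'
  · refine ⟨1, ?_⟩
    rw [XP_nil] at hc ⊢
    have h2 : c * (t : ↥E0) * c⁻¹ = 1 := Subtype.ext hc
    have : (t : ↥E0) = 1 := by
      have e : (t : ↥E0) = c⁻¹ * (c * (t : ↥E0) * c⁻¹) * c := by group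
      rw [e, h2]; group
    rw [this]; simp
  · obtain ⟨z, hz1, hz2⟩ := cent0 hb'
    obtain ⟨k, hk⟩ := gen0 c
    have hk' : (QuotientGroup.mk c : ↥E0 ⧸ commutator ↥E0) = QuotientGroup.mk (z ^ k) := by
      rw [QuotientGroup.mk_zpow, hz1]; exact hk.symm
    have hmem : (z ^ k)⁻¹ * c ∈ commutator ↥E0 := by
      rw [← QuotientGroup.eq]; exact hk'.symm
    refine ⟨⟨_, hmem⟩, ?_⟩
    obtain ⟨Z, hZ⟩ : ∃ Z : GL chevF4.Idx (ZMod 2), Z = (((z ^ k : ↥E0)) : GL chevF4.Idx (ZMod 2)) := ⟨_, rfl⟩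
    have hZB : Z * XP good3_F4 (ZMod 2) b = XP good3_F4 (ZMod 2) b * Z := by
      have h9 : z ^ k ∈ (Subgroup.centralizer {XP good3_F4 (ZMod 2) b}).comap E0.subtype := by
        apply Subgroup.zpow_mem
        rw [Subgroup.mem_comap, Subgroup.mem_centralizer_singleton_iff]
        exact hz2
      rw [Subgroup.mem_comap, Subgroup.mem_centralizer_singleton_iff] at h9
      rw [hZ]; exact h9
    have hco : (((⟨_, hmem⟩ : ↥(commutator ↥E0)) : ↥E0) : GL chevF4.Idx (ZMod 2)) =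
        Z⁻¹ * (c : GL chevF4.Idx (ZMod 2)) := by
      rw [hZ]; rfl
    rw [hco]
    exact conj_key _ _ _ _ hc hZB


end CfsgLib.Inv
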