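import Mathlib
import Cfsg.Agent.LibInvTF4c

set_option autoImplicit false
set_option linter.all false
set_option maxRecDepth 100000

/-! involution classes of the Tits group -/

namespace CfsgLib.Inv

open Cfsg Matrix CfsgLib.BN CfsgLib.Chev Cfsg.Lie

theorem count_gen {H : Type*} [Group H] {ι : Type*} (R : List ι) (Y : ι → H) (hnd : R.Nodup)
    (hcl : ∀ t : H, t * t = 1 → t ≠ 1 → ∃ b ∈ R, IsConj t (Y b)) (hsq : ∀ b ∈ R, Y b * Y b = 1) (hne : ∀ b ∈ R, Y b ≠ 1)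
    (hpair : ∀ b₁ ∈ R, ∀ b₂ ∈ R, IsConj (Y b₁) (Y b₂) → b₁ = b₂) :
    (ConjClasses.mk '' {g : H | orderOf g = 2}).ncard = R.length := by
  classical
  have h1 : (ConjClasses.mk '' {g : H | orderOf g = 2}) = (fun b => ConjClasses.mk (Y b)) '' (R.toFinset : Set ι) := by
    ext c
    constructor
    · rintro ⟨t, ht, rfl⟩
      have h2 : orderOf t = 2 := ht
      have h3 : t * t = 1 := by
        have := pow_orderOf_eq_one t
        rwa [h2, pow_two] at this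
      have h4 : t ≠ 1 := by
        rintro rfl
        rw [orderOf_one] at h2
        omega
      obtain ⟨b, hb, hc⟩ := hcl t h3 h4
      exact ⟨b, by simpa using hb, (ConjClasses.mk_eq_mk_iff_isConj.2 hc).symm⟩
    · rintro ⟨b, hb, rfl⟩
      have hb' : b ∈ R := by simpa using hb
      exact ⟨Y b, orderOf_eq_prime (by rw [pow_two]; exact hsq b hb') (hne b hb'), rfl⟩
  rw [h1, Set.ncard_image_of_injOn, Set.ncard_coe_finset, List.toFinset_card_of_nodup hnd]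
  intro b₁ h₁ b₂ h₂ e
  exact hpair b₁ (by simpa using h₁) b₂ (by simpa using h₂) (ConjClasses.mk_eq_mk_iff_isConj.1 e)

theorem tits_count : (ConjClasses.mk '' {g : TitsGroup | orderOf g = 2}).ncard = 2 := by
  have hm : ∀ b ∈ RTF4, XP good3_F4 (ZMod 2) b ∈ E0 := fun b hb => memE0 (mem_TF4 b (List.mem_cons_of_mem _ hb))
  have hsq : ∀ b ∈ RTF4, XP good3_F4 (ZMod 2) b * XP good3_F4 (ZMod 2) b = 1 := by
    intro b hb
    have := XP_eq good3_F4 (F := ZMod 2) (sq_TF4 b (List.mem_cons_of_mem _ hb))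
    rwa [XP_append, XP_nil] at this
  have hT : ∀ b (hb : b ∈ RTF4), (⟨_, hm b hb⟩ : ↥E0) ∈ commutator ↥E0 := fun b hb => invol_mem _ (Subtype.ext (hsq b hb))
  classical
  let Y : List ℕ → TitsGroup := fun b => if hb : b ∈ RTF4 then ⟨⟨_, hm b hb⟩, hT b hb⟩ else 1
  have hY : ∀ b (hb : b ∈ RTF4), ((Y b : ↥E0) : GL chevF4.Idx (ZMod 2)) = XP good3_F4 (ZMod 2) b := by
    intro b hb
    simp only [Y, dif_pos hb]
  have hne : ∀ b ∈ RTF4, XP good3_F4 (ZMod 2) b ≠ 1 := hne_of good3_F4 (L := LTF4) rfl rk_TF4 (by decide)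
  have hext : ∀ x y : TitsGroup, ((x : ↥E0) : GL chevF4.Idx (ZMod 2)) = ((y : ↥E0) : GL chevF4.Idx (ZMod 2)) → x = y :=
    fun x y h => Subtype.ext (Subtype.ext h)
  have h0 := count_gen (H := TitsGroup) RTF4 Y (by decide) ?_ ?_ ?_ ?_
  · exact h0
  · intro t ht h1
    obtain ⟨b, hb, c, hc⟩ := clT t ht
    rcases List.mem_cons.1 hb with rfl | hb'
    · exfalso
      apply h1
      rw [XP_nil] at hc
      have h2 : c * t * c⁻¹ = 1 := hext _ _ hc
      have e : t = c⁻¹ * (c * t * c⁻¹) * c := by group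
      rw [e, h2]; group
    · refine ⟨b, hb', isConj_iff.2 ⟨c, hext _ _ ?_⟩⟩
      rw [hY b hb', ← hc]; rfl
  · intro b hb
    apply hext
    show ((Y b : ↥E0) : GL chevF4.Idx (ZMod 2)) * ((Y b : ↥E0) : GL chevF4.Idx (ZMod 2)) = 1
    rw [hY b hb, hsq b hb]
  · intro b hb h
    apply hne b hb
    rw [← hY b hb, h]; rfl
  · intro b₁ h₁ b₂ h₂ h
    obtain ⟨c, hc⟩ := isConj_iff.1 h
    obtain ⟨f, R⟩ := exists_R0
    refine hpair_of good3_F4 (F := ZMod 2) (L := LTF4) rfl rk_TF4 (by decide) b₁ h₁ b₂ h₂ ⟨((c : ↥E0) : GL chevF4.Idx (ZMod 2)),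
      R.E_le_G (c : ↥E0).2, ?_⟩
    rw [← hY b₁ h₁, ← hY b₂ h₂, ← hc]; rfl

end CfsgLib.Inv
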