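import Mathlib
import Cfsg.Agent.LibZStar3

/-! Consequences of the `Z*`-theorem for abelian Sylow 2-subgroups (seat helper20). -/

set_option autoImplicit false
set_option linter.all false

namespace CfsgLib.IsoAb

open Subgroup Cfsg CfsgLib.Isolated CfsgLib.ZStar
open scoped Pointwise

universe u

theorem fuse {G : Type u} [Group G] [Finite G] (T : Sylow 2 G) (hT : ∀ a ∈ (T : Subgroup G), ∀ b ∈ (T : Subgroup G), a * b = b * a)
    {z : G} (hz : z ∈ (T : Subgroup G))
    (hN : ∀ g ∈ normalizer ((T : Subgroup G) : Set G), g * z = z * g) (g : G) (h : g * z * g⁻¹ ∈ (T : Subgroup G)) :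
    g * z * g⁻¹ = z := by
  haveI : Fact (Nat.Prime 2) := ⟨Nat.prime_two⟩
  haveI : IsMulCommutative (T : Subgroup G) := ⟨⟨fun a b => Subtype.ext (hT a a.2 b b.2)⟩⟩
  obtain ⟨n, hn, hn2⟩ := T.conj_eq_normalizer_conj_of_mem z g⁻¹ hz (by rw [inv_inv]; exact h)
  rw [inv_inv] at hn2
  rw [hn2, mul_assoc, ← hN n hn, inv_mul_cancel_left]

theorem central_of_norm (n : ℕ) : ∀ (G : Type u) [Group G] [Finite G], Nat.card G = n → ∀ (T : Sylow 2 G),
    (∀ a ∈ (T : Subgroup G), ∀ b ∈ (T : Subgroup G), a * b = b * a) → oddCore G = ⊥ → ∀ z ∈ (T : Subgroup G),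
    (∀ g ∈ normalizer ((T : Subgroup G) : Set G), g * z = z * g) → z ∈ center G := by
  haveI : Fact (Nat.Prime 2) := ⟨Nat.prime_two⟩
  induction n using Nat.strong_induction_on with
  | _ n ih =>
  intro G _ _ hn T hT hcore z hz hN
  by_cases hz1 : z = 1
  · rw [hz1]; exact one_mem _
  obtain ⟨k, hk⟩ := (IsPGroup.iff_orderOf.1 T.isPGroup') (⟨z, hz⟩ : (T : Subgroup G))
  rw [Subgroup.orderOf_mk] at hk
  have hk0 : k ≠ 0 := by
    rintro rfl
    rw [pow_zero, orderOf_eq_one_iff] at hk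
    exact hz1 hk
  obtain ⟨j, rfl⟩ := Nat.exists_eq_succ_of_ne_zero hk0
  obtain ⟨w, hw⟩ : ∃ w, w = z ^ (2 ^ j) := ⟨_, rfl⟩
  have hw2 : orderOf w = 2 := by
    rw [hw, orderOf_pow_of_dvd (pow_ne_zero _ two_ne_zero) (by rw [hk]; exact pow_dvd_pow _ (Nat.le_succ j)), hk,
      Nat.pow_succ, Nat.mul_div_cancel_left _ (pow_pos two_pos j)]
  have hwT : w ∈ (T : Subgroup G) := by rw [hw]; exact pow_mem hz _
  have hwN : ∀ g ∈ normalizer ((T : Subgroup G) : Set G), g * w = w * g := by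
    intro g hg
    have h1 : Commute g z := hN g hg
    rw [hw]
    exact h1.pow_right _
  have hiso : IsIsolatedInvolution w := (isolated_iff_sylow T hw2 hwT).mpr (fun g h => fuse T hT hwT hwN g h)
  have hwc : w ∈ center G := by
    rw [mem_center_iff]
    intro g
    have h1 := zstar hiso g
    rw [hcore, mem_bot] at h1
    have h2 : w * g = g * w := by
      calc w * g = w * g * w⁻¹ * g⁻¹ * (g * w) := by group
        _ = g * w := by rw [h1, one_mul]
    exact h2.symm
  haveI hnorm : (zpowers w).Normal := by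
    constructor
    intro x hx g
    have h1 : x ∈ center G := (zpowers_le.mpr hwc) hx
    rw [mem_center_iff.mp h1 g, mul_inv_cancel_right]
    exact hx
  have hcoreQ := oddCore_quotient_central hw2 hwc hcore
  have hwz : zpowers w ≤ (T : Subgroup G) := zpowers_le.mpr hwT
  have hsurj : Function.Surjective (QuotientGroup.mk' (zpowers w)) := QuotientGroup.mk'_surjective _
  obtain ⟨T', hT'⟩ : ∃ T' : Sylow 2 (G ⧸ zpowers w), (T' : Subgroup _) = (T : Subgroup G).map (QuotientGroup.mk' (zpowers w)) :=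
    ⟨T.mapSurjective hsurj, T.coe_mapSurjective hsurj⟩
  have hmem : ∀ x : G, (QuotientGroup.mk' (zpowers w) x) ∈ (T' : Subgroup _) ↔ x ∈ (T : Subgroup G) := by
    intro x
    rw [hT']
    constructor
    · rintro ⟨y, hy, hxy⟩
      have h1 : y⁻¹ * x ∈ zpowers w := QuotientGroup.eq.mp hxy
      have h2 := mul_mem hy (hwz h1)
      rwa [mul_inv_cancel_left] at h2
    · exact fun h => ⟨x, h, rfl⟩
  have hlt : Nat.card (G ⧸ zpowers w) < n := by
    have h1 := card_eq_card_quotient_mul_card_subgroup (zpowers w)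
    rw [Nat.card_zpowers, hw2, hn] at h1
    have h2 : 0 < Nat.card (G ⧸ zpowers w) := Nat.card_pos
    omega
  have hzq := ih _ hlt (G ⧸ zpowers w) rfl T' (by
    rw [hT']
    rintro _ ⟨a, ha, rfl⟩ _ ⟨b, hb, rfl⟩
    rw [← map_mul, hT a ha b hb, map_mul]) hcoreQ (QuotientGroup.mk' (zpowers w) z) ((hmem z).mpr hz) (by
    intro g hg
    obtain ⟨g, rfl⟩ := hsurj g
    rw [← map_mul, ← map_mul, hN g]
    rw [mem_normalizer_iff] at hg ⊢
    intro h
    have h1 := hg (QuotientGroup.mk' (zpowers w) h)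
    rw [← map_inv, ← map_mul, ← map_mul] at h1
    rw [hmem, hmem] at h1
    exact h1)
  rw [mem_center_iff]
  intro g
  have h1 := mem_center_iff.mp hzq (QuotientGroup.mk' (zpowers w) g)
  rw [← map_mul, ← map_mul] at h1
  have h2 : (g * z)⁻¹ * (z * g) ∈ zpowers w := QuotientGroup.eq.mp h1
  have h3 : g * z * g⁻¹ ∈ (T : Subgroup G) := by
    have h4 : (g * z * g⁻¹) * (g * ((g * z)⁻¹ * (z * g)) * g⁻¹) = z := by group
    have h5 : g * ((g * z)⁻¹ * (z * g)) * g⁻¹ ∈ zpowers w := hnorm.conj_mem _ h2 g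
    have h6 : g * z * g⁻¹ = z * (g * ((g * z)⁻¹ * (z * g)) * g⁻¹)⁻¹ := by
      rw [eq_mul_inv_iff_mul_eq]; exact h4
    rw [h6]
    exact mul_mem hz (inv_mem (hwz h5))
  have h7 := fuse T hT hz hN g h3
  rw [mul_inv_eq_iff_eq_mul] at h7
  exact h7

theorem exists_central {G : Type u} [Group G] [Finite G] (T : Sylow 2 G)
    (hT : ∀ a ∈ (T : Subgroup G), ∀ b ∈ (T : Subgroup G), a * b = b * a) (hcore : oddCore G = ⊥) (D : Subgroup G)
    (hD : ∀ x y : G, x * y * x⁻¹ * y⁻¹ ∈ D) {a : G} (ha : a ∈ (T : Subgroup G)) :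
    ∃ x ∈ (T : Subgroup G), x ∈ D ∧ a * x⁻¹ ∈ center G := by
  classical
  haveI : Fact (Nat.Prime 2) := ⟨Nat.prime_two⟩
  set N := normalizer ((T : Subgroup G) : Set G) with hNdef
  have hTN : (T : Subgroup G) ≤ N := le_normalizer
  haveI : ((T : Subgroup G).subgroupOf N).Normal := normal_in_normalizer
  have hcop : (Nat.card ((T : Subgroup G).subgroupOf N)).Coprime ((T : Subgroup G).subgroupOf N).index := by
    have h1 : Nat.card ((T : Subgroup G).subgroupOf N) = Nat.card (T : Subgroup G) :=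
      Nat.card_congr (subgroupOfEquivOfLe hTN).toEquiv
    rw [h1, T.card_eq_multiplicity]
    apply Nat.Coprime.pow_left
    rw [Nat.Prime.coprime_iff_not_dvd Nat.prime_two]
    intro h2
    have h3 : ((T : Subgroup G).subgroupOf N).index ∣ (T : Subgroup G).index := by
      have := relIndex_mul_index hTN
      exact ⟨N.index, this.symm⟩
    exact T.not_dvd_index (dvd_trans h2 h3)
  obtain ⟨H, hH⟩ := exists_right_complement'_of_coprime hcop
  haveI := Fintype.ofFinite H
  have hm : (Nat.card (T : Subgroup G)).Coprime (Nat.card H) := by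
    have h1 : Nat.card ((T : Subgroup G).subgroupOf N) = Nat.card (T : Subgroup G) :=
      Nat.card_congr (subgroupOfEquivOfLe hTN).toEquiv
    rw [← h1]
    rw [hH.symm.index_eq_card] at hcop
    exact hcop
  letI cg : CommGroup (T : Subgroup G) := { (inferInstance : Group (T : Subgroup G)) with
    mul_comm := fun a b => Subtype.ext (hT a a.2 b b.2) }
  let c : N → (T : Subgroup G) →* (T : Subgroup G) := fun k =>
    { toFun := fun x => ⟨k * x * (k : G)⁻¹, (mem_normalizer_iff.mp k.2 _).mp x.2⟩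
      map_one' := Subtype.ext (by simp)
      map_mul' := fun x y => Subtype.ext (by simp [mul_assoc]) }
  have hc : ∀ k x, (c k x : G) = k * x * (k : G)⁻¹ := fun k x => rfl
  obtain ⟨b, hb⟩ : ∃ b : (T : Subgroup G), b ^ Nat.card H = ⟨a, ha⟩ := (hm.pow_left_bijective).2 ⟨a, ha⟩
  set z : (T : Subgroup G) := ∏ h : H, c h b with hzdef
  have hzH : ∀ k : H, c k z = z := by
    intro k
    rw [hzdef, map_prod]
    refine Fintype.prod_equiv (Equiv.mulLeft k) _ _ fun h => ?_
    apply Subtype.ext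
    simp only [hc, Equiv.coe_mulLeft, Subgroup.coe_mul, mul_inv_rev]
    group
  have hzN : ∀ g ∈ N, g * (z : G) = z * g := by
    intro g hg
    obtain ⟨⟨⟨t, ht⟩, k⟩, htk⟩ := hH.2 ⟨g, hg⟩
    have h1 : (t : G) * (k : N) = g := congrArg Subtype.val htk
    have h2 := congrArg Subtype.val (hzH k)
    rw [hc, mul_inv_eq_iff_eq_mul] at h2
    have h3 : (t : G) ∈ (T : Subgroup G) := ht
    rw [← h1, mul_assoc, h2, ← mul_assoc, hT _ h3 _ z.2, mul_assoc]
  have hzc := central_of_norm _ G rfl T hT hcore z z.2 hzN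
  have hx : (⟨a, ha⟩ : (T : Subgroup G)) * z⁻¹ ∈ D.subgroupOf (T : Subgroup G) := by
    have h1 : z * (⟨a, ha⟩ : (T : Subgroup G))⁻¹ ∈ D.subgroupOf (T : Subgroup G) := by
      have h2 : z * (⟨a, ha⟩ : (T : Subgroup G))⁻¹ = ∏ h : H, (c h b * b⁻¹) := by
        rw [Finset.prod_mul_distrib, Finset.prod_const, Finset.card_univ, ← Nat.card_eq_fintype_card, inv_pow, hb]
      rw [h2]
      apply prod_mem
      intro h _
      rw [mem_subgroupOf]
      exact hD _ _
    have h3 := inv_mem h1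
    rwa [mul_inv_rev, inv_inv] at h3
  refine ⟨a * (z : G)⁻¹, mul_mem ha (inv_mem z.2), hx, ?_⟩
  have h4 : a * (a * (z : G)⁻¹)⁻¹ = z := by
    rw [mul_inv_rev, inv_inv]
    have h5 := hT a ha z z.2
    rw [← mul_assoc, h5, mul_assoc, mul_inv_cancel, mul_one]
  rw [h4]
  exact hzc

end CfsgLib.IsoAb
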