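import Mathlib
import Cfsg.Agent.LibFixIrr19
import Cfsg.Agent.LibClifford2
import Cfsg.Agent.LibGlaub4
import Cfsg.Agent.LibCharBasic3

/-! Derived length of a Sylow `p`-subgroup of a `p`-solvable group and the number of irreducible
characters of degree divisible by `p`. -/

set_option autoImplicit false
set_option linter.all false

namespace Cfsg.Agent.LibItoCount

open Cfsg CfsgLib.CharBasic CfsgLib.Clifford CfsgLib.PSolv19 CfsgLib.FixIrr19
open scoped ComplexConjugate Pointwise

universe u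

/-- if a character of degree prime to `|N|` is `λ`-isotypic on `N`, then `λ` extends -/
theorem lin_ext {Γ : Type u} [Group Γ] [Finite Γ] {N : Subgroup Γ} (l : N →* ℂˣ) {ψ : Γ → ℂ}
    (hψ : IsIrrCharacter Γ ψ) (hres : ∀ n : N, ψ n = ψ 1 * (l n : ℂ))
    (hcop : (charDegree ψ).Coprime (Nat.card N)) : ∃ μ : Γ →* ℂˣ, ∀ n : N, μ n = l n := by
  have hdeg := CfsgLib.CharInt.irr_one_eq_charDegree hψ
  obtain ⟨d, ρ, hρ, rfl⟩ := hψ
  have hd : (d : ℂ) = charDegree ρ.character := by
    rw [← hdeg, Representation.char_one]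
    simp
  have hd' : d = charDegree ρ.character := by exact_mod_cast hd
  have hd0 : (d : ℂ) ≠ 0 := by
    rw [hd]
    have := CfsgLib.CharInt.irr_charDegree_pos (χ := ρ.character) ⟨d, ρ, hρ, rfl⟩
    exact_mod_cast this.ne'
  have hln : ∀ n : N, ‖(l n : ℂ)‖ = 1 := by
    intro n
    have h1 : ((l n : ℂˣ) : ℂ) ^ Nat.card N = 1 := by
      rw [← Units.val_pow_eq_pow_val, ← map_pow, pow_card_eq_one', map_one, Units.val_one]
    exact Complex.norm_eq_one_of_pow_eq_one h1 Nat.card_pos.ne'
  have hscal : ∀ n : N, ρ n = (l n : ℂ) • LinearMap.id := by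
    intro n
    have h1 : ‖ρ.character n‖ = (Module.finrank ℂ (Fin d → ℂ) : ℝ) := by
      rw [hres n, norm_mul, hln n, mul_one, Representation.char_one]
      simp
    obtain ⟨ω, hω⟩ := (norm_character_eq_iff ρ n).1 h1
    have h2 : ρ.character n = ω * d := by
      rw [Representation.character, hω, map_smul, LinearMap.trace_id, smul_eq_mul]
      simp
    have h3 : ω * d = l n * d := by
      rw [← h2, hres n, Representation.char_one, mul_comm]
      simp
    rw [hω, mul_right_cancel₀ hd0 h3]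
  let D : Γ →* ℂˣ := (((LinearMap.det : ((Fin d → ℂ) →ₗ[ℂ] (Fin d → ℂ)) →* ℂ)).comp ρ).toHomUnits
  have hD : ∀ n : N, D n = l n ^ d := by
    intro n
    apply Units.ext
    change LinearMap.det (ρ n) = _
    rw [hscal n, LinearMap.det_smul, LinearMap.det_id, mul_one]
    simp
  rw [← hd'] at hcop
  have hb : (1 : ℤ) = d * Nat.gcdA d (Nat.card N) + Nat.card N * Nat.gcdB d (Nat.card N) := by
    have := Nat.gcd_eq_gcd_ab d (Nat.card N)
    rw [hcop] at this
    exact_mod_cast this
  refine ⟨D ^ (Nat.gcdA d (Nat.card N)), fun n => ?_⟩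
  have h4 : (l n) ^ (Nat.card N) = 1 := by
    rw [← map_pow, pow_card_eq_one', map_one]
  calc (D ^ (Nat.gcdA d (Nat.card N))) n = (l n ^ d) ^ (Nat.gcdA d (Nat.card N)) := by
        rw [← hD n]; rfl
    _ = l n ^ ((d : ℤ) * Nat.gcdA d (Nat.card N)) := by rw [zpow_mul, zpow_natCast]
    _ = l n ^ ((d : ℤ) * Nat.gcdA d (Nat.card N)) *
          l n ^ ((Nat.card N : ℤ) * Nat.gcdB d (Nat.card N)) := by
        rw [zpow_mul (l n) (Nat.card N : ℤ), zpow_natCast, h4, one_zpow, mul_one]
    _ = l n ^ (1 : ℤ) := by rw [← zpow_add, ← hb]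
    _ = l n := zpow_one _

theorem sum_hom_eq_zero {N : Type u} [Group N] [Fintype N] (l : N →* ℂˣ) {n₀ : N} (h : l n₀ ≠ 1) :
    ∑ n : N, ((l n : ℂˣ) : ℂ) = 0 := by
  have h1 : ((l n₀ : ℂˣ) : ℂ) * ∑ n : N, ((l n : ℂˣ) : ℂ) = ∑ n : N, ((l n : ℂˣ) : ℂ) := by
    rw [Finset.mul_sum]
    refine Fintype.sum_equiv (Equiv.mulLeft n₀) _ _ fun n => ?_
    simp
  have h2 : (((l n₀ : ℂˣ) : ℂ) - 1) * ∑ n : N, ((l n : ℂˣ) : ℂ) = 0 := by
    rw [sub_mul, h1, one_mul, sub_self]
  rcases mul_eq_zero.1 h2 with h3 | h3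
  · exfalso
    apply h
    apply Units.ext
    rw [Units.val_one]
    exact sub_eq_zero.1 h3
  · exact h3

theorem not_ker {G : Type u} [Group G] [Fintype G] {N : Subgroup G} [Fintype N] (l : N →* ℂˣ)
    {n₀ : N} (h : l n₀ ≠ 1) {χ : G → ℂ}
    (h1 : classInner (fun n : N => χ n) (fun n => ((l n : ℂˣ) : ℂ)) ≠ 0) :
    ∃ n ∈ N, χ n ≠ χ 1 := by
  by_contra hcon
  push Not at hcon
  apply h1
  unfold classInner
  have h2 : ∑ g : N, χ g * conj ((l g : ℂˣ) : ℂ) = χ 1 * conj (∑ g : N, ((l g : ℂˣ) : ℂ)) := by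
    rw [map_sum, Finset.mul_sum]
    refine Finset.sum_congr rfl fun g _ => ?_
    rw [hcon g g.2]
  rw [h2, sum_hom_eq_zero l h, map_zero, mul_zero, mul_zero]

/-- an abelian nontrivial normal subgroup has a nontrivial linear character -/
theorem exists_lin {N : Type u} [Group N] [Finite N] [Nontrivial N] (hab : ∀ a b : N, a * b = b * a) :
    ∃ (l : N →* ℂˣ) (n₀ : N), l n₀ ≠ 1 ∧ IsIrrCharacter N (fun n => ((l n : ℂˣ) : ℂ)) := by
  obtain ⟨n₀, hn₀⟩ := exists_ne (1 : N)
  have h1 : ¬ IsConj (1 : N) n₀ := by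
    rw [isConj_one_right]
    exact hn₀
  rw [isConj_iff_irr] at h1
  push Not at h1
  obtain ⟨χ, hχ⟩ := h1
  have hdeg := irr_degree_one_of_comm hab χ.2
  have hm := linear_mul (CfsgLib.CharInt.irr_isCharacter χ.2) hdeg
  let l : N →* ℂˣ := (MonoidHom.mk' (M := N) (G := ℂˣ) (fun n => Units.mk0 ((χ : N → ℂ) n) (by
    intro h0
    have := hm n n⁻¹
    rw [mul_inv_cancel, hdeg, h0, zero_mul] at this
    exact one_ne_zero this)) (by
    intro a b
    apply Units.ext
    exact hm a b))
  have hl : (fun n => ((l n : ℂˣ) : ℂ)) = (χ : N → ℂ) := rfl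
  refine ⟨l, n₀, ?_, ?_⟩
  · intro h
    apply hχ
    rw [hdeg]
    have h2 : ((l n₀ : ℂˣ) : ℂ) = (χ : N → ℂ) n₀ := rfl
    rw [← h2, h, Units.val_one]
  · rw [hl]
    exact χ.2

theorem key {p : ℕ} [hp : Fact p.Prime] {G : Type u} [Group G] [Finite G] (hs : IsPSolvable p G)
    {N : Subgroup G} (hN : N.Normal) (hne : N ≠ ⊥) (hpN : IsPGroup p N)
    (hab : ∀ a b : N, a * b = b * a)
    (hall : ∀ χ : G → ℂ, IsIrrCharacter G χ → (∃ n ∈ N, χ n ≠ χ 1) → ¬ p ∣ charDegree χ) :
    ∃ P : Sylow p G, ∀ a ∈ P, ∀ b ∈ P, a * b * a⁻¹ * b⁻¹ ∈ N := by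
  classical
  haveI := Fintype.ofFinite G
  haveI := Fintype.ofFinite N
  haveI : Nontrivial N := (Subgroup.nontrivial_iff_ne_bot N).2 hne
  obtain ⟨l, n₀, hl0, hl⟩ := exists_lin hab
  set lam : N → ℂ := fun n => ((l n : ℂˣ) : ℂ) with hlam
  have hlam1 : lam 1 = 1 := by simp [hlam]
  set T := inertia hN lam with hT
  haveI := Fintype.ofFinite T
  have hNT : N ≤ T := le_inertia hN (irr_classFun hl)
  have hTm : ∀ g, g ∈ T ↔ cj hN g lam = lam := fun g => Iff.rfl
  -- degrees
  have hdegT : ∀ ψ : T → ℂ, IsIrrCharacter T ψ → classInner (resT hNT ψ) lam ≠ 0 →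
      ¬ p ∣ T.index * charDegree ψ := by
    intro ψ hψ hc
    obtain ⟨h1, h2⟩ := clifford_corr hN hNT hl hTm hψ hc
    have h3 := not_ker l hl0 (χ := indFun T ψ) (by rw [h2]; exact hc)
    have h4 := hall _ h1 h3
    have h5 : charDegree (indFun T ψ) = T.index * charDegree ψ := by
      have h6 := CfsgLib.CharInt.irr_one_eq_charDegree h1
      rw [CfsgLib.CharIndA.ind_one, CfsgLib.CharInt.irr_one_eq_charDegree hψ] at h6
      exact_mod_cast h6.symm
    rwa [h5] at h4
  -- one character over lam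
  obtain ⟨χ, hχ, hχl⟩ := exists_above N hl
  obtain ⟨ψ, hψ, hψc, -, -⟩ := clifford_corr_surj hN hNT hl hTm hχ hχl
  have hψd := hdegT ψ hψ hψc
  have hTi : ¬ p ∣ T.index := fun h => hψd (h.mul_right _)
  have hψp : ¬ p ∣ charDegree ψ := fun h => hψd (h.mul_left _)
  have hres := resT_of_invariant hN hNT hψ hl (fun t ht => (hTm t).1 ht) hψc
  have hres1 : ψ 1 = classInner (resT hNT ψ) lam := by
    have h1 := congrFun hres 1
    rw [Pi.smul_apply, hlam1, smul_eq_mul, mul_one] at h1
    rw [← h1]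
    rfl
  -- extension
  let N' : Subgroup T := N.subgroupOf T
  haveI hN' : N'.Normal := hN.subgroupOf T
  let e : N' ≃* N := Subgroup.subgroupOfEquivOfLe hNT
  obtain ⟨μ, hμ⟩ := lin_ext (N := N') (l.comp e.toMonoidHom) hψ (by
    intro n
    have h1 := congrFun hres (e n)
    rw [Pi.smul_apply, smul_eq_mul, ← hres1] at h1
    exact h1) (by
    have h1 : Nat.card N' = Nat.card N := Nat.card_congr e.toEquiv
    rw [h1]
    obtain ⟨k, hk⟩ := IsPGroup.iff_card.1 hpN
    rw [hk]
    exact Nat.Coprime.pow_right k ((Nat.Prime.coprime_iff_not_dvd hp.out).2 hψp).symm)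
  have hμN : ∀ n : N, μ ⟨n, hNT n.2⟩ = l n := by
    intro n
    have h1 := hμ (e.symm n)
    simp only [MonoidHom.comp_apply] at h1
    have h2 : e.toMonoidHom (e.symm n) = n := e.apply_symm_apply n
    rw [h2] at h1
    exact h1
  -- all degrees of T/N' are prime to p
  have hdegQ : ∀ ξ : IrrCharacter (T ⧸ N'), ¬ p ∣ charDegree (ξ : T ⧸ N' → ℂ) := by
    intro ξ
    obtain ⟨β, hβ, hβd⟩ := charDegree_infl N' ξ
    have h1 := CfsgLib.Glaub4.irr_mul_linear β.2 μ
    have h2 : resT hNT (fun g => (β : T → ℂ) g * μ g) = ((β : T → ℂ) 1) • lam := by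
      ext n
      have h3 : (β : T → ℂ) ⟨n, hNT n.2⟩ = (β : T → ℂ) 1 := by
        have h7 : ((⟨n, hNT n.2⟩ : T) : T ⧸ N') = ((1 : T) : T ⧸ N') :=
          (QuotientGroup.eq_one_iff _).2 (Subgroup.mem_subgroupOf.2 n.2)
        rw [hβ, hβ, h7]
      change (β : T → ℂ) ⟨n, hNT n.2⟩ * ((μ ⟨n, hNT n.2⟩ : ℂˣ) : ℂ) = _
      rw [h3, hμN n, Pi.smul_apply, smul_eq_mul]
    have h4 : (β : T → ℂ) 1 ≠ 0 := irr_one_ne_zero β.2
    have h5 := hdegT _ h1 (by
      rw [h2, CfsgLib.CharNorm.ci_smul_l, irr_inner_self hl, mul_one]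
      exact h4)
    have h6 : charDegree (fun g => (β : T → ℂ) g * μ g) = charDegree (β : T → ℂ) := by
      unfold charDegree
      simp
    rw [h6, hβd] at h5
    exact fun h => h5 (h.mul_left _)
  have hsT : IsPSolvable p (T ⧸ N') := psolv_quotient hp.out (psolv_subgroup hp.out hs T) N'
  obtain ⟨R⟩ : Nonempty (Sylow p T) := inferInstance
  have hQn := ito_psolv _ rfl hsT hdegQ (R.mapSurjective (QuotientGroup.mk'_surjective N'))
  have hQc := sylow_comm_of_normal hdegQ hQn
    (R.mapSurjective (QuotientGroup.mk'_surjective N')).isPGroup'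
  -- the Sylow subgroup of G
  have hRp : IsPGroup p ((R : Subgroup T).map T.subtype) := R.isPGroup'.map _
  have hRi : ¬ p ∣ ((R : Subgroup T).map T.subtype).index := by
    rw [Subgroup.index_map_subtype]
    intro h
    rcases (Nat.Prime.dvd_mul hp.out).1 h with h | h
    · exact R.not_dvd_index h
    · exact hTi h
  refine ⟨hRp.toSylow hRi, ?_⟩
  rintro a ha b hb
  obtain ⟨a, ha, rfl⟩ := ha
  obtain ⟨b, hb, rfl⟩ := hb
  have h1 := hQc ⟨QuotientGroup.mk' N' a, ⟨a, ha, rfl⟩⟩ ⟨QuotientGroup.mk' N' b, ⟨b, hb, rfl⟩⟩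
  have h2 : (QuotientGroup.mk' N') (a * b) = (QuotientGroup.mk' N') (b * a) := by
    rw [map_mul, map_mul]
    exact congrArg Subtype.val h1
  have h3 : a * b * a⁻¹ * b⁻¹ ∈ N' := by
    rw [← QuotientGroup.eq_one_iff]
    change (QuotientGroup.mk' N') (a * b * a⁻¹ * b⁻¹) = 1
    rw [map_mul, map_mul, h2, map_mul, map_inv, map_inv]
    group
  exact h3

/-- number of irreducible characters of degree divisible by `p` -/
noncomputable def num (p : ℕ) (G : Type u) [Group G] : ℕ :=
  Nat.card {χ : IrrCharacter G // p ∣ charDegree (χ : G → ℂ)}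

def infl (p : ℕ) {G : Type u} [Group G] [Finite G] (N : Subgroup G) [N.Normal]
    (ξ : {χ : IrrCharacter (G ⧸ N) // p ∣ charDegree (χ : G ⧸ N → ℂ)}) :
    {χ : IrrCharacter G // p ∣ charDegree (χ : G → ℂ)} :=
  ⟨⟨fun g => (ξ.1 : G ⧸ N → ℂ) g, CfsgLib.Quot19.irr_inflate N ξ.1.2⟩, ξ.2⟩

theorem infl_inj (p : ℕ) {G : Type u} [Group G] [Finite G] (N : Subgroup G) [N.Normal] :
    Function.Injective (infl p N) := by
  intro ξ ξ' h
  apply Subtype.ext
  apply Subtype.ext
  ext x
  obtain ⟨x, rfl⟩ := QuotientGroup.mk_surjective x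
  have h1 := congrArg (fun t : {χ : IrrCharacter G // p ∣ charDegree (χ : G → ℂ)} =>
    (t.1 : G → ℂ) x) h
  exact h1

theorem num_quot_le (p : ℕ) {G : Type u} [Group G] [Finite G] (N : Subgroup G) [N.Normal] :
    num p (G ⧸ N) ≤ num p G :=
  Nat.card_le_card_of_injective _ (infl_inj p N)

theorem num_quot_lt (p : ℕ) {G : Type u} [Group G] [Finite G] (N : Subgroup G) [N.Normal]
    {χ : G → ℂ} (hχ : IsIrrCharacter G χ) (hp : p ∣ charDegree χ) (hn : ∃ n ∈ N, χ n ≠ χ 1) :
    num p (G ⧸ N) + 1 ≤ num p G := by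
  refine lt_of_le_of_ne (num_quot_le p N) fun heq => ?_
  have hbij := (Nat.bijective_iff_injective_and_card (infl p N)).2 ⟨infl_inj p N, heq⟩
  obtain ⟨ξ, hξ⟩ := hbij.2 ⟨⟨χ, hχ⟩, hp⟩
  obtain ⟨n, hn, hne⟩ := hn
  apply hne
  have h1 : ∀ g : G, (ξ.1 : G ⧸ N → ℂ) g = χ g := fun g =>
    congrArg (fun t : {χ : IrrCharacter G // p ∣ charDegree (χ : G → ℂ)} => (t.1 : G → ℂ) g) hξ
  have h2 : ((n : G) : G ⧸ N) = ((1 : G) : G ⧸ N) := (QuotientGroup.eq_one_iff n).2 hn
  rw [← h1, ← h1, h2]

theorem ds_inj {A B : Type*} [Group A] [Group B] (f : A →* B) (hf : Function.Injective f) {k : ℕ}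
    (h : derivedSeries B k = ⊥) : derivedSeries A k = ⊥ :=
  (Subgroup.map_eq_bot_iff_of_injective _ hf).1
    (eq_bot_iff.2 ((map_derivedSeries_le_derivedSeries f k).trans h.le))

theorem ds_ext {A B : Type*} [Group A] [Group B] (f : A →* B)
    (hf : ∀ a ∈ f.ker, ∀ b ∈ f.ker, a * b = b * a) {k : ℕ}
    (h : derivedSeries B k = ⊥) : derivedSeries A (k + 1) = ⊥ := by
  have h1 : derivedSeries A k ≤ f.ker := by
    intro x hx
    have h2 : f x ∈ derivedSeries B k := map_derivedSeries_le_derivedSeries f k ⟨x, hx, rfl⟩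
    rw [h, Subgroup.mem_bot] at h2
    exact h2
  rw [derivedSeries_succ, Subgroup.commutator_eq_bot_iff_le_centralizer]
  intro x hx
  rw [Subgroup.mem_centralizer_iff]
  intro y hy
  exact hf y (h1 hy) x (h1 hx)

theorem ds_mono {A : Type*} [Group A] {k m : ℕ} (h : derivedSeries A k = ⊥) (hkm : k ≤ m) :
    derivedSeries A m = ⊥ :=
  eq_bot_iff.2 ((derivedSeries_antitone A hkm).trans h.le)

theorem min_abelian {p : ℕ} [hp : Fact p.Prime] {G : Type u} [Group G] [Finite G] {K : Subgroup G}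
    (hK : K.Normal) (h0 : K ≠ ⊥) (hmin : ∀ L : Subgroup G, L.Normal → L ≤ K → L = ⊥ ∨ L = K)
    (hpK : IsPGroup p K) (a b : K) : a * b = b * a := by
  haveI := hpK.isNilpotent
  haveI : Nontrivial K := (Subgroup.nontrivial_iff_ne_bot K).2 h0
  have h6 : (commutator K).map K.subtype = ⁅K, K⁆ := by
    rw [_root_.commutator_def, Subgroup.map_commutator, ← MonoidHom.range_eq_map,
      Subgroup.range_subtype]
  rcases hmin ⁅K, K⁆ inferInstance (by rw [← h6]; exact Subgroup.map_subtype_le _) with h | h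
  · rw [Subgroup.commutator_eq_bot_iff_le_centralizer] at h
    exact Subtype.ext (Subgroup.mem_centralizer_iff.1 (h b.2) a a.2)
  · exfalso
    have h1 := Group.IsSolvable.commutator_lt_top_of_nontrivial K
    apply h1.ne
    apply Subgroup.map_injective K.subtype_injective
    rw [h6, h, ← MonoidHom.range_eq_map, Subgroup.range_subtype]

theorem main {p : ℕ} [hp : Fact p.Prime] : ∀ (n : ℕ) {G : Type u} [Group G] [Finite G],
    Nat.card G = n → IsPSolvable p G → ∀ P : Sylow p G,
    derivedSeries ↥(P : Subgroup G) (num p G + 1) = ⊥ := by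
  intro n
  induction n using Nat.strong_induction_on with
  | _ n ih =>
    intro G _ _ hn hs P
    rcases subsingleton_or_nontrivial G with h | h
    · haveI : Subsingleton ↥(P : Subgroup G) := inferInstance
      exact Subsingleton.elim _ _
    · obtain ⟨K, hKn, hK0, _, hmin⟩ := exists_min (⊤ : Subgroup G) (by
        intro h
        exact (not_subsingleton G) ((Subgroup.subsingleton_iff).1 (subsingleton_of_bot_eq_top h.symm)))
      haveI := hKn
      have hlt : Nat.card (G ⧸ K) < n := by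
        rw [← hn, ← Subgroup.index_eq_card]
        have h3 := Subgroup.card_mul_index K
        have h4 : 1 < Nat.card K := by
          rw [Subgroup.one_lt_card_iff_ne_bot]; exact hK0
        have h5 : 0 < K.index := Nat.pos_of_ne_zero Subgroup.index_ne_zero_of_finite
        nlinarith
      have hIH := ih (Nat.card (G ⧸ K)) hlt rfl (psolv_quotient hp.out hs K)
        (P.mapSurjective (QuotientGroup.mk'_surjective K))
      let f : ↥(P : Subgroup G) →* ↥((P.mapSurjective (QuotientGroup.mk'_surjective K)) : Subgroup (G ⧸ K)) :=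
        MonoidHom.codRestrict ((QuotientGroup.mk' K).comp (P : Subgroup G).subtype) _
          (fun x => ⟨x, x.2, rfl⟩)
      have hker : ∀ x ∈ f.ker, (x : G) ∈ K := by
        intro x hx
        have h1 : QuotientGroup.mk' K (x : G) = 1 := congrArg Subtype.val (MonoidHom.mem_ker.1 hx)
        exact (QuotientGroup.eq_one_iff (x : G)).1 h1
      rcases psolv_minNormal hs hKn hK0 hmin with h1 | h1
      · have hab := min_abelian hKn hK0 hmin h1
        by_cases hall : ∀ χ : G → ℂ, IsIrrCharacter G χ → (∃ n ∈ K, χ n ≠ χ 1) → ¬ p ∣ charDegree χ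
        · by_cases h0 : num p G = 0
          · have hdeg : ∀ χ : IrrCharacter G, ¬ p ∣ charDegree (χ : G → ℂ) := by
              intro χ hχ
              have h2 : Nonempty {χ : IrrCharacter G // p ∣ charDegree (χ : G → ℂ)} := ⟨⟨χ, hχ⟩⟩
              have h3 : 0 < num p G := Nat.card_pos
              omega
            have hPn := ito_psolv _ rfl hs hdeg P
            have hPc := sylow_comm_of_normal hdeg hPn P.isPGroup'
            rw [h0, zero_add]
            have h4 := ds_ext (1 : ↥(P : Subgroup G) →* Unit) (fun a _ b _ => hPc a b) (k := 0)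
              (Subsingleton.elim _ _)
            exact h4
          · obtain ⟨P', hP'⟩ := key hs hKn hK0 h1 hab hall
            have h5 : derivedSeries ↥(P' : Subgroup G) 2 = ⊥ := by
              have h6 : derivedSeries ↥(P' : Subgroup G) 1 ≤ K.subgroupOf (P' : Subgroup G) := by
                rw [derivedSeries_one, _root_.commutator_def, Subgroup.commutator_le]
                intro a _ b _
                exact hP' a a.2 b b.2
              rw [derivedSeries_succ, Subgroup.commutator_eq_bot_iff_le_centralizer]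
              intro x hx
              rw [Subgroup.mem_centralizer_iff]
              intro y hy
              exact Subtype.ext (congrArg (fun t : K => (t : G)) (hab ⟨y, h6 hy⟩ ⟨x, h6 hx⟩))
            have h7 := ds_inj (Sylow.equiv P P').toMonoidHom (Sylow.equiv P P').injective h5
            exact ds_mono h7 (by omega)
        · push Not at hall
          obtain ⟨χ, hχ, hn', hd⟩ := hall
          have h2 := num_quot_lt p K hχ hd hn'
          have h3 := ds_ext f (fun a ha b hb => Subtype.ext (congrArg (fun t : K => (t : G))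
            (hab ⟨a, hker a ha⟩ ⟨b, hker b hb⟩))) hIH
          exact ds_mono h3 (by omega)
      · have hinj : Function.Injective f := by
          rw [injective_iff_map_eq_one]
          intro x hx
          have h2 := hker x hx
          obtain ⟨k, hk⟩ := IsPGroup.iff_orderOf.1 P.isPGroup' x
          have h3 : orderOf (x : G) = p ^ k := by rw [← hk, Subgroup.orderOf_coe]
          have h4 : orderOf (x : G) ∣ Nat.card K := by
            have := orderOf_dvd_natCard (⟨x, h2⟩ : K)
            rwa [Subgroup.orderOf_mk] at this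
          have h5 : k = 0 := by
            by_contra hk0
            apply h1
            refine dvd_trans ?_ h4
            rw [h3]
            exact dvd_pow_self p hk0
          rw [h5, pow_zero, orderOf_eq_one_iff] at h3
          exact Subtype.ext h3
        exact ds_mono (ds_inj f hinj hIH) (by have := num_quot_le p K; omega)

end Cfsg.Agent.LibItoCount
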