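import Cfsg.Agent.LibJone8

/-!
Element orders of the Janko group.
-/

set_option autoImplicit false
set_option maxRecDepth 100000

namespace CfsgLib.Jone

open Subgroup

theorem opw {G : Type*} [Group G] [Finite G] {g : G} {n k m : ℕ} (h : orderOf g = n)
    (hm : n / Nat.gcd n k = m) : orderOf (g ^ k) = m := by rw [orderOf_pow, h, hm]

/-- elements of order 15 are conjugate to powers of `g15` -/
theorem cent15_all {k : JJ} (hk : orderOf k = 15) : Nat.card (centralizer ({k} : Set JJ)) ≤ 15 := by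
  obtain ⟨z, hz⟩ : ∃ z, z = g15 ^ 3 := ⟨_, rfl⟩
  obtain ⟨u, hu⟩ : ∃ u, u = g15 ^ 5 := ⟨_, rfl⟩
  have hzo : orderOf z = 5 := by rw [hz]; exact opw order_g15 (by norm_num)
  have huo : orderOf u = 3 := by rw [hu]; exact opw order_g15 (by norm_num)
  have hk3 : orderOf (k ^ 3) = 5 := opw hk (by norm_num)
  obtain ⟨t, ht⟩ := exists_conj_pow n5 hzo hk3
  obtain ⟨k1, hk1⟩ : ∃ k1, k1 = t * k * t⁻¹ := ⟨_, rfl⟩
  have hk1o : orderOf k1 = 15 := by
    rw [hk1, show t * k * t⁻¹ = MulAut.conj t k from rfl, MulEquiv.orderOf_eq, hk]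
  have ht' : k1 ^ 3 ∈ zpowers z := by rw [hk1, conj_pow]; exact ht
  have hk13 : orderOf (k1 ^ 3) = 5 := opw hk1o (by norm_num)
  have hzz : z ∈ zpowers (k1 ^ 3) := by
    have h1 : zpowers (k1 ^ 3) = zpowers z := by
      apply Subgroup.eq_of_le_of_card_ge
      · rwa [zpowers_le]
      · rw [Nat.card_zpowers, Nat.card_zpowers, hk13, hzo]
    rw [h1]; exact mem_zpowers z
  have hcomm : Commute k1 z := by
    obtain ⟨m, hm⟩ := mem_zpowers_iff.1 hzz
    rw [← hm]
    exact ((Commute.refl k1).pow_right 3).zpow_right m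
  have hC1 : k1 ^ 5 ∈ centralizer ({z} : Set JJ) := by
    rw [mem_centralizer_singleton_iff]; exact (hcomm.pow_left 5).eq
  have hC2 : u ∈ centralizer ({z} : Set JJ) := by
    rw [mem_centralizer_singleton_iff, hu, hz]
    exact ((Commute.refl g15).pow_pow 5 3).eq
  have hC3 : ¬ 3 ^ 2 ∣ Nat.card (centralizer ({z} : Set JJ)) := fun h =>
    n3 (h.trans (Subgroup.card_subgroup_dvd_card _))
  obtain ⟨c, hc⟩ := exists_conj_pow (G := centralizer ({z} : Set JJ)) (p := 3) hC3
    (g := ⟨u, hC2⟩) (h := ⟨k1 ^ 5, hC1⟩) (by rw [Subgroup.orderOf_mk, huo])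
    (by rw [Subgroup.orderOf_mk]; exact opw hk1o (by norm_num))
  obtain ⟨m, hm⟩ := mem_zpowers_iff.1 hc
  have hm' : u ^ m = c.1 * k1 ^ 5 * c.1⁻¹ := congrArg Subtype.val hm
  obtain ⟨k2, hk2⟩ : ∃ k2, k2 = c.1 * k1 * c.1⁻¹ := ⟨_, rfl⟩
  have h5 : k2 ^ 5 ∈ zpowers g15 := by
    rw [hk2, conj_pow, ← hm', hu]
    exact zpow_mem (pow_mem (mem_zpowers g15) 5) m
  have h3 : k2 ^ 3 ∈ zpowers g15 := by
    rw [hk2, conj_pow]
    obtain ⟨j, hj⟩ := mem_zpowers_iff.1 ht'
    have hcz : Commute c.1 z := mem_centralizer_singleton_iff.1 c.2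
    have h4 : c.1 * k1 ^ 3 * c.1⁻¹ = k1 ^ 3 := by
      rw [← hj]
      exact mul_inv_eq_iff_eq_mul.2 (hcz.zpow_right j).eq
    rw [h4, ← hj, hz]
    exact zpow_mem (pow_mem (mem_zpowers g15) 3) j
  have hk2m : k2 ∈ zpowers g15 := by
    have : k2 = k2 ^ 3 * k2 ^ 3 * (k2 ^ 5)⁻¹ := by
      rw [← pow_add, eq_mul_inv_iff_mul_eq, ← pow_succ']
    rw [this]
    exact mul_mem (mul_mem h3 h3) (inv_mem h5)
  have hk2o : orderOf k2 = orderOf g15 := by
    rw [hk2, show c.1 * k1 * (c.1)⁻¹ = MulAut.conj c.1 k1 from rfl, MulEquiv.orderOf_eq, hk1o,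
      order_g15]
  calc Nat.card (centralizer ({k} : Set JJ)) ≤ Nat.card (centralizer ({k1} : Set JJ)) := by
        rw [hk1]; exact card_cent_conj t k
    _ ≤ Nat.card (centralizer ({k2} : Set JJ)) := by
        rw [hk2]; exact card_cent_conj c.1 k1
    _ ≤ Nat.card (centralizer ({g15} : Set JJ)) := card_cent_of_mem hk2m hk2o
    _ ≤ 15 := cent15

theorem order_mem (h : JJ) : orderOf h ∣ 6 ∨ orderOf h ∣ 10 ∨ orderOf h ∣ 15 ∨ orderOf h = 7 ∨
    orderOf h = 11 ∨ orderOf h = 19 := by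
  by_cases h7 : 7 ∣ orderOf h
  · exact Or.inr (Or.inr (Or.inr (Or.inl (order_eq_of_dvd n7 order_g7 cent7 h7))))
  by_cases h11 : 11 ∣ orderOf h
  · exact Or.inr (Or.inr (Or.inr (Or.inr (Or.inl (order_eq_of_dvd n11 order_g11 cent11 h11)))))
  by_cases h19 : 19 ∣ orderOf h
  · exact Or.inr (Or.inr (Or.inr (Or.inr (Or.inr (order_eq_of_dvd n19 order_g19 cent19 h19)))))
  have hd : orderOf h ∣ 175560 := card_J1 ▸ orderOf_dvd_natCard h
  have hd2 : orderOf h ∣ 120 := by
    have e1 : Nat.Coprime (orderOf h) 7 := ((Nat.Prime.coprime_iff_not_dvd (by norm_num)).2 h7).symm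
    have e2 : Nat.Coprime (orderOf h) 11 := ((Nat.Prime.coprime_iff_not_dvd (by norm_num)).2 h11).symm
    have e3 : Nat.Coprime (orderOf h) 19 := ((Nat.Prime.coprime_iff_not_dvd (by norm_num)).2 h19).symm
    have e4 : Nat.Coprime (orderOf h) (7 * 11 * 19) := (e1.mul_right e2).mul_right e3
    exact e4.dvd_of_dvd_mul_right (by norm_num; exact hd)
  have h4 : ¬ 4 ∣ orderOf h := by
    rintro ⟨m, hm⟩
    have hm0 : m ≠ 0 := by
      rintro rfl
      exact (orderOf_pos h).ne' (by rw [hm])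
    have h5 : orderOf (h ^ m) = 4 := by
      rw [orderOf_pow, hm, Nat.gcd_eq_right (Dvd.intro_left 4 rfl), Nat.mul_div_cancel _ (by omega)]
    have h6 : (h ^ m) ^ 2 = 1 := pow_of_two (n := 2) (by
      have := pow_orderOf_eq_one (h ^ m)
      rwa [h5] at this)
    have h7 := orderOf_dvd_of_pow_eq_one h6
    rw [h5] at h7
    norm_num at h7
  have hle := Nat.le_of_dvd (by norm_num) hd2
  have h30 : orderOf h ≠ 30 := by
    intro h30
    have h15 : orderOf (h ^ 2) = 15 := opw h30 (by norm_num)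
    have hc := cent15_all h15
    have h5 : Nat.card (zpowers h) ≤ Nat.card (centralizer ({h ^ 2} : Set JJ)) := by
      apply Subgroup.card_le_of_le
      rw [zpowers_le, mem_centralizer_singleton_iff]
      exact ((Commute.refl h).pow_right 2).eq
    rw [Nat.card_zpowers, h30] at h5
    omega
  have h0 := orderOf_pos h
  clear hd
  generalize orderOf h = n at *
  have key : ∀ n ∈ Finset.range 121, n ∣ 120 → ¬ 4 ∣ n → n ≠ 30 → n ∣ 6 ∨ n ∣ 10 ∨ n ∣ 15 := by
    decide +kernel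
  rcases key n (Finset.mem_range.2 (by omega)) hd2 h4 h30 with h | h | h
  · exact Or.inl h
  · exact Or.inr (Or.inl h)
  · exact Or.inr (Or.inr (Or.inl h))

def g6 : JJ := gj [0, 3, 3]
def g10 : JJ := gj [0, 1]

theorem order_g6 : orderOf g6 = 6 := by
  refine orderOf_eq_of_pow_and_pow_div_prime (by norm_num) (gj_pow_one (by decide +kernel)) ?_
  intro p hp hpd
  have h15 : p ∣ 2 * 3 := hpd
  rcases (Nat.Prime.dvd_mul hp).1 h15 with h | h
  · have := (Nat.prime_dvd_prime_iff_eq hp (by norm_num)).1 h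
    subst this
    exact gj_pow_ne (w := [0, 3, 3]) 1 ok1 (by decide +kernel)
  · have := (Nat.prime_dvd_prime_iff_eq hp (by norm_num)).1 h
    subst this
    exact gj_pow_ne (w := [0, 3, 3]) 1 ok1 (by decide +kernel)

theorem order_g10 : orderOf g10 = 10 := by
  refine orderOf_eq_of_pow_and_pow_div_prime (by norm_num) (gj_pow_one (by decide +kernel)) ?_
  intro p hp hpd
  have h15 : p ∣ 2 * 5 := hpd
  rcases (Nat.Prime.dvd_mul hp).1 h15 with h | h
  · have := (Nat.prime_dvd_prime_iff_eq hp (by norm_num)).1 h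
    subst this
    exact gj_pow_ne (w := [0, 1]) 1 ok1 (by decide +kernel)
  · have := (Nat.prime_dvd_prime_iff_eq hp (by norm_num)).1 h
    subst this
    exact gj_pow_ne (w := [0, 1]) 1 ok1 (by decide +kernel)

def WW : Finset ℕ := {1, 2, 3, 5, 6, 7, 10, 11, 15, 19}

theorem range_J1 : Set.range (orderOf : JJ → ℕ) = (WW : Set ℕ) := by
  ext n
  constructor
  · rintro ⟨h, rfl⟩
    have hpos := orderOf_pos h
    have key : ∀ n ∈ Finset.range 20, 0 < n → (n ∣ 6 ∨ n ∣ 10 ∨ n ∣ 15 ∨ n = 7 ∨ n = 11 ∨ n = 19) →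
        n ∈ WW := by decide +kernel
    have h1 := order_mem h
    refine key _ ?_ hpos h1
    rw [Finset.mem_range]
    rcases h1 with h1 | h1 | h1 | h1 | h1 | h1
    · have := Nat.le_of_dvd (by norm_num) h1; omega
    · have := Nat.le_of_dvd (by norm_num) h1; omega
    · have := Nat.le_of_dvd (by norm_num) h1; omega
    all_goals omega
  · intro hn
    have hn' : n ∈ WW := hn
    simp only [WW, Finset.mem_insert, Finset.mem_singleton] at hn'
    rcases hn' with rfl | rfl | rfl | rfl | rfl | rfl | rfl | rfl | rfl | rfl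
    · exact ⟨1, orderOf_one⟩
    · exact ⟨g6 ^ 3, opw order_g6 (by norm_num)⟩
    · exact ⟨g6 ^ 2, opw order_g6 (by norm_num)⟩
    · exact ⟨g10 ^ 2, opw order_g10 (by norm_num)⟩
    · exact ⟨g6, order_g6⟩
    · exact ⟨g7, order_g7⟩
    · exact ⟨g10, order_g10⟩
    · exact ⟨g11, order_g11⟩
    · exact ⟨g15, order_g15⟩
    · exact ⟨g19, order_g19⟩

/-! The other group -/

section sd

variable (A : Type) [CommGroup A]

/-- The automorphism of order 3. -/
def f3 : MulAut (A × A) where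
  toFun p := (p.2⁻¹, p.1 * p.2⁻¹)
  invFun p := (p.2 * p.1⁻¹, p.1⁻¹)
  left_inv := by rintro ⟨a, b⟩; simp
  right_inv := by rintro ⟨a, b⟩; simp
  map_mul' := by
    rintro ⟨a, b⟩ ⟨c, d⟩
    ext
    · simp [mul_comm]
    · simp only [Prod.snd_mul, Prod.mk_mul_mk, mul_inv]
      exact mul_mul_mul_comm _ _ _ _

theorem f3_sum (p : A × A) : p * f3 A p * f3 A (f3 A p) = 1 := by
  obtain ⟨a, b⟩ := p
  change (a, b) * (b⁻¹, a * b⁻¹) * ((a * b⁻¹)⁻¹, b⁻¹ * (a * b⁻¹)⁻¹) = 1
  ext
  · change a * b⁻¹ * (a * b⁻¹)⁻¹ = 1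
    exact mul_inv_cancel _
  · change b * (a * b⁻¹) * (b⁻¹ * (a * b⁻¹)⁻¹) = 1
    rw [mul_comm b, mul_assoc, mul_inv_cancel_left, mul_inv_cancel]

theorem f3_cube : (f3 A) ^ 3 = 1 := by
  ext p : 1
  have h1 : (f3 A ^ 3) p = f3 A (f3 A (f3 A p)) := rfl
  rw [h1]
  have h2 := f3_sum A p
  have h3 := f3_sum A (f3 A p)
  have h4 : f3 A (f3 A (f3 A p)) = (f3 A p * f3 A (f3 A p))⁻¹ := by
    rw [eq_inv_iff_mul_eq_one, mul_comm]; exact h3
  rw [h4, MulAut.one_apply, inv_eq_iff_mul_eq_one, mul_comm, ← mul_assoc]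
  exact h2

abbrev FF := (A × A) ⋊[(zpowers (f3 A)).subtype] ↥(zpowers (f3 A))

theorem FF_order (hA : ∀ a : A, a ^ 5 = 1) (x : FF A) : orderOf x ∣ 5 ∨ orderOf x ∣ 3 := by
  obtain ⟨v, g, hg⟩ := x
  have hcube : ∀ (k : ↥(zpowers (f3 A))) (v : A × A), v * k.1 v * k.1 (k.1 v) = 1 →
      (k : MulAut (A × A)) ^ 3 = 1 → (⟨v, k⟩ : FF A) ^ 3 = 1 := by
    intro k v h1 h2
    rw [pow_succ, pow_two]
    ext1
    · rw [SemidirectProduct.mul_left, SemidirectProduct.mul_left, SemidirectProduct.mul_right]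
      exact h1
    · rw [SemidirectProduct.mul_right, SemidirectProduct.mul_right]
      apply Subtype.ext
      change k.1 * k.1 * k.1 = 1
      rw [← pow_two, ← pow_succ]
      exact h2
  obtain ⟨m, hm⟩ := mem_zpowers_iff.1 hg
  have hmod : g = 1 ∨ g = f3 A ∨ g = (f3 A) ^ 2 := by
    have h3 : (f3 A) ^ (3 : ℤ) = 1 := by
      have := f3_cube A
      rw [← zpow_natCast] at this
      exact_mod_cast this
    have h4 : g = (f3 A) ^ (m % 3) := by
      rw [← hm]
      conv_lhs => rw [← Int.emod_add_mul_ediv m 3, zpow_add, zpow_mul, h3, one_zpow, mul_one]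
    have h5 : m % 3 = 0 ∨ m % 3 = 1 ∨ m % 3 = 2 := by omega
    rcases h5 with h5 | h5 | h5
    · left; rw [h4, h5, zpow_zero]
    · right; left; rw [h4, h5, zpow_one]
    · right; right; rw [h4, h5]; rfl
  rcases hmod with h | h | h
  · left
    subst h
    have h5 : (⟨v, ⟨1, hg⟩⟩ : FF A) = SemidirectProduct.inl v := rfl
    rw [h5]
    apply orderOf_dvd_of_pow_eq_one
    rw [← map_pow]
    have : v ^ 5 = 1 := Prod.ext (hA _) (hA _)
    rw [this, map_one]
  · right
    apply orderOf_dvd_of_pow_eq_one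
    apply hcube
    · subst h; exact f3_sum A v
    · subst h; exact f3_cube A
  · right
    apply orderOf_dvd_of_pow_eq_one
    apply hcube
    · change v * g v * g (g v) = 1
      rw [h]
      change v * f3 A (f3 A v) * f3 A (f3 A (f3 A (f3 A v))) = 1
      have h1 : f3 A (f3 A (f3 A v)) = v := DFunLike.congr_fun (f3_cube A) v
      rw [h1, mul_assoc, mul_comm (f3 A (f3 A v)), ← mul_assoc]
      exact f3_sum A v
    · change g ^ 3 = 1
      rw [h, ← pow_mul, mul_comm, pow_mul, f3_cube, one_pow]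

end sd

/-- elementary abelian 5-group -/
abbrev A5n (n : ℕ) := Multiplicative (Fin n → ZMod 5)

theorem A5n_pow (n : ℕ) (a : A5n n) : a ^ 5 = 1 := by
  apply Multiplicative.toAdd.injective
  rw [toAdd_pow, toAdd_one]
  funext i
  change (5 : ℕ) • (Multiplicative.toAdd a i) = 0
  rw [nsmul_eq_mul]
  have : ((5 : ℕ) : ZMod 5) = 0 := ZMod.natCast_self 5
  rw [this, zero_mul]

theorem range_FF (n : ℕ) : Set.range (orderOf : FF (A5n (n + 1)) → ℕ) = (({1, 3, 5} : Finset ℕ) : Set ℕ) := by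
  ext k
  constructor
  · rintro ⟨x, rfl⟩
    rcases FF_order _ (A5n_pow (n + 1)) x with h | h
    · rcases (Nat.dvd_prime (by norm_num)).1 h with h | h <;> rw [h] <;> simp
    · rcases (Nat.dvd_prime (by norm_num)).1 h with h | h <;> rw [h] <;> simp
  · intro hk
    have hk' : k = 1 ∨ k = 3 ∨ k = 5 := by simpa using hk
    rcases hk' with rfl | rfl | rfl
    · exact ⟨1, orderOf_one⟩
    · refine ⟨SemidirectProduct.inr ⟨f3 _, mem_zpowers _⟩, ?_⟩
      rw [orderOf_injective _ SemidirectProduct.inr_injective, Subgroup.orderOf_mk]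
      refine orderOf_eq_prime (hp := ⟨by norm_num⟩) (f3_cube _) ?_
      intro h
      have h1 := congrArg Prod.snd (DFunLike.congr_fun h (Multiplicative.ofAdd (fun _ => (1 : ZMod 5)), 1))
      have h2 : (Multiplicative.ofAdd (fun _ => (1 : ZMod 5)) : A5n (n + 1)) * 1⁻¹ = 1 := h1
      rw [inv_one, mul_one] at h2
      have h3 := congrFun (congrArg Multiplicative.toAdd h2) 0
      have h4 : (1 : ZMod 5) = 0 := h3
      revert h4; decide
    · refine ⟨SemidirectProduct.inl (Multiplicative.ofAdd (fun _ => (1 : ZMod 5)), 1), ?_⟩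
      rw [orderOf_injective _ SemidirectProduct.inl_injective]
      refine orderOf_eq_prime (hp := ⟨by norm_num⟩) (Prod.ext (A5n_pow _ _) (A5n_pow _ _)) ?_
      intro h
      have h1 := congrArg Prod.fst h
      have h3 := congrFun (congrArg Multiplicative.toAdd h1) 0
      have h4 : (1 : ZMod 5) = 0 := h3
      revert h4; decide

theorem range_D5 : Set.range (orderOf : DihedralGroup 5 → ℕ) = (({1, 2, 5} : Finset ℕ) : Set ℕ) := by
  ext k
  constructor
  · rintro ⟨x, rfl⟩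
    cases x with
    | r i =>
      have h : (DihedralGroup.r i : DihedralGroup 5) ^ 5 = 1 := by
        revert i; decide
      rcases (Nat.dvd_prime (by norm_num)).1 (orderOf_dvd_of_pow_eq_one h) with h | h <;> rw [h] <;> simp
    | sr i => rw [DihedralGroup.orderOf_sr]; simp
  · intro hk
    have hk' : k = 1 ∨ k = 2 ∨ k = 5 := by simpa using hk
    rcases hk' with rfl | rfl | rfl
    · exact ⟨1, orderOf_one⟩
    · exact ⟨DihedralGroup.sr 0, DihedralGroup.orderOf_sr 0⟩
    · exact ⟨DihedralGroup.r 1, DihedralGroup.orderOf_r_one⟩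

theorem range_prod {A B : Type} [Group A] [Group B] {S T : Finset ℕ}
    (hA : Set.range (orderOf : A → ℕ) = (S : Set ℕ)) (hB : Set.range (orderOf : B → ℕ) = (T : Set ℕ)) :
    Set.range (orderOf : A × B → ℕ) = ((Finset.image₂ Nat.lcm S T : Finset ℕ) : Set ℕ) := by
  rw [Finset.coe_image₂, ← hA, ← hB]
  ext k
  constructor
  · rintro ⟨⟨a, b⟩, rfl⟩
    exact ⟨orderOf a, ⟨a, rfl⟩, orderOf b, ⟨b, rfl⟩, (Prod.orderOf (a, b)).symm⟩
  · rintro ⟨_, ⟨a, rfl⟩, _, ⟨b, rfl⟩, rfl⟩
    exact ⟨(a, b), Prod.orderOf (a, b)⟩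

def S1 : Finset ℕ := Finset.image₂ Nat.lcm WW WW
def S2 : Finset ℕ := Finset.image₂ Nat.lcm WW S1
def S3 : Finset ℕ := Finset.image₂ Nat.lcm WW S2
def T1 : Finset ℕ := Finset.image₂ Nat.lcm {1, 2, 5} {1, 3, 5}
def T2 : Finset ℕ := Finset.image₂ Nat.lcm WW T1
def T3 : Finset ℕ := Finset.image₂ Nat.lcm WW T2
def T4 : Finset ℕ := Finset.image₂ Nat.lcm WW T3

theorem S3_eq_T4 : S3 = T4 := by decide +kernel

theorem main_J1 (N : ℕ) : ∃ (H : Type) (_ : Group H) (_ : Fintype H), N < Fintype.card H ∧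
    Set.range (orderOf : H → ℕ) = Set.range (orderOf : JJ × JJ × JJ × JJ → ℕ) := by
  classical
  have hA : Finite (A5n (N + 1)) := inferInstance
  have hM : Finite (MulAut (A5n (N + 1) × A5n (N + 1))) := inferInstance
  have hF : Finite (FF (A5n (N + 1))) := Finite.of_equiv _ SemidirectProduct.equivProd.symm
  have hJ : Finite JJ := inferInstance
  letI hfin : Fintype (JJ × JJ × JJ × (DihedralGroup 5 × FF (A5n (N + 1)))) := Fintype.ofFinite _
  refine ⟨JJ × JJ × JJ × (DihedralGroup 5 × FF (A5n (N + 1))), inferInstance, hfin,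
    ?_, ?_⟩
  · rw [← Nat.card_eq_fintype_card]
    have h1 : N < Nat.card (A5n (N + 1)) := by
      have h2 : Nat.card (A5n (N + 1)) = 5 ^ (N + 1) := by
        rw [Nat.card_eq_fintype_card, Fintype.card_multiplicative, Fintype.card_fun,
          Fintype.card_fin, ZMod.card]
      rw [h2]
      calc N < N + 1 := Nat.lt_succ_self N
        _ < 5 ^ (N + 1) := Nat.lt_pow_self (by norm_num)
    have h3 : Nat.card (A5n (N + 1)) ≤ Nat.card (JJ × JJ × JJ × (DihedralGroup 5 × FF (A5n (N + 1)))) := by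
      apply Nat.card_le_card_of_injective
        (fun a => ((1, 1, 1, (1, SemidirectProduct.inl (a, 1))) :
          JJ × JJ × JJ × (DihedralGroup 5 × FF (A5n (N + 1)))))
      intro a b hab
      have h4 := congrArg (fun p => p.2.2.2.2) hab
      have h5 := SemidirectProduct.inl_injective h4
      exact congrArg Prod.fst h5
    omega
  · have r1 : Set.range (orderOf : DihedralGroup 5 × FF (A5n (N + 1)) → ℕ) = (T1 : Set ℕ) :=
      range_prod range_D5 (range_FF N)
    have r2 : Set.range (orderOf : JJ × (DihedralGroup 5 × FF (A5n (N + 1))) → ℕ) = (T2 : Set ℕ) :=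
      range_prod range_J1 r1
    have r3 : Set.range (orderOf : JJ × JJ × (DihedralGroup 5 × FF (A5n (N + 1))) → ℕ) =
      (T3 : Set ℕ) := range_prod range_J1 r2
    have r4 : Set.range (orderOf : JJ × JJ × JJ × (DihedralGroup 5 × FF (A5n (N + 1))) → ℕ) =
      (T4 : Set ℕ) := range_prod range_J1 r3
    have q1 : Set.range (orderOf : JJ × JJ → ℕ) = (S1 : Set ℕ) := range_prod range_J1 range_J1
    have q2 : Set.range (orderOf : JJ × JJ × JJ → ℕ) = (S2 : Set ℕ) := range_prod range_J1 q1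
    have q3 : Set.range (orderOf : JJ × JJ × JJ × JJ → ℕ) = (S3 : Set ℕ) := range_prod range_J1 q2
    have h : (S3 : Set ℕ) = (T4 : Set ℕ) := by rw [S3_eq_T4]
    exact r4.trans (h.symm.trans q3.symm)

end CfsgLib.Jone
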