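import Mathlib
import Cfsg.Prelude
import Cfsg.Agent.LibNpc9
import Cfsg.Agent.LibPSolv19
import Cfsg.Agent.S0215

set_option autoImplicit false

/-!
Numbers of conjugacy classes of `p`-elements (helper4).
-/

namespace CfsgLib.KPi

open Subgroup Cfsg CfsgLib.Npc9

universe u v

section Count

theorem count_fib {α β : Type*} [DecidableEq α] [DecidableEq β] (s F : Finset α) (f : α → β) (m : ℕ) (hm : 1 ≤ m)
    (h : ∀ x ∈ s, x ∉ F → m ≤ (s.filter (fun y => f y = f x)).card) :
    m * (s.image f).card ≤ s.card + (m - 1) * F.card := by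
  classical
  have h1 : s.card = ∑ b ∈ s.image f, (s.filter (fun y => f y = b)).card :=
    Finset.card_eq_sum_card_image f s
  set t1 := (s.image f).filter (fun b => (s.filter (fun y => f y = b)).card < m) with ht1
  have h2 : t1.card ≤ F.card := by
    have h3 : t1 ⊆ F.image f := by
      intro b hb
      rw [ht1, Finset.mem_filter, Finset.mem_image] at hb
      obtain ⟨⟨x, hx, rfl⟩, hlt⟩ := hb
      rw [Finset.mem_image]
      refine ⟨x, ?_, rfl⟩
      by_contra hxF
      exact absurd (h x hx hxF) (by omega)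
    exact (Finset.card_le_card h3).trans Finset.card_image_le
  have h4 : m * (s.image f).card = ∑ b ∈ s.image f, m := by rw [Finset.sum_const, smul_eq_mul, mul_comm]
  have h5 : ∑ b ∈ s.image f, m ≤ ∑ b ∈ s.image f, ((s.filter (fun y => f y = b)).card +
      (if (s.filter (fun y => f y = b)).card < m then (m - 1) else 0)) := by
    apply Finset.sum_le_sum
    intro b hb
    obtain ⟨x, hx, rfl⟩ := Finset.mem_image.1 hb
    have h6 : 0 < (s.filter (fun y => f y = f x)).card := Finset.card_pos.2 ⟨x, Finset.mem_filter.2 ⟨hx, rfl⟩⟩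
    split_ifs with h7
    · omega
    · omega
  rw [h4]
  refine h5.trans ?_
  rw [Finset.sum_add_distrib, ← h1, ← Finset.sum_filter, Finset.sum_const, smul_eq_mul, mul_comm]
  exact Nat.add_le_add_left (Nat.mul_le_mul_left _ h2) _

theorem count_fib' {α β : Type*} (s F : Set α) (hs : s.Finite) (hF : F.Finite) (f : α → β) (m : ℕ) (hm : 1 ≤ m)
    (h : ∀ x ∈ s, x ∉ F → ∃ t : Finset α, t.card = m ∧ ∀ y ∈ t, y ∈ s ∧ f y = f x) :
    m * (f '' s).ncard ≤ s.ncard + (m - 1) * F.ncard := by
  classical
  have h1 := count_fib hs.toFinset hF.toFinset f m hm (by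
    intro x hx hxF
    rw [Set.Finite.mem_toFinset] at hx hxF
    obtain ⟨t, ht, hts⟩ := h x hx hxF
    rw [← ht]
    apply Finset.card_le_card
    intro y hy
    rw [Finset.mem_filter, Set.Finite.mem_toFinset]
    exact hts y hy)
  have h2 : (f '' s).ncard = (hs.toFinset.image f).card := by
    rw [← Set.ncard_coe_finset, Finset.coe_image, Set.Finite.coe_toFinset]
  rw [h2, Set.ncard_eq_toFinset_card s hs, Set.ncard_eq_toFinset_card F hF]
  exact h1

end Count

section Defs

variable {G : Type u} [Group G]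

/-- elements all of whose prime divisors lie in `π` -/
def PE (π : Set ℕ) (x : G) : Prop := ∀ r : ℕ, r.Prime → r ∣ orderOf x → r ∈ π

theorem PE.conj {π : Set ℕ} {x : G} (h : PE π x) (g : G) : PE π (g * x * g⁻¹) := by
  intro r hr hd
  have h1 : orderOf (g * x * g⁻¹) = orderOf x := by
    have := orderOf_injective (MulAut.conj g).toMonoidHom (MulAut.conj g).injective x
    simpa using this
  rw [h1] at hd
  exact h r hr hd

theorem PE.isConj {π : Set ℕ} {x y : G} (h : PE π x) (hxy : IsConj x y) : PE π y := by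
  obtain ⟨g, rfl⟩ := isConj_iff.1 hxy
  exact h.conj g

/-- the number of classes of `π`-elements -/
noncomputable def kpi (π : Set ℕ) (G : Type u) [Group G] : ℕ := (ConjClasses.mk '' {x : G | PE π x}).ncard

theorem card_classes (π : Set ℕ) : Nat.card {c : ConjClasses G // ∀ x ∈ c.carrier, PE π x} = kpi π G := by
  rw [kpi, ← Nat.card_coe_set_eq]
  congr 1
  apply congrArg (fun s : Set (ConjClasses G) => (s : Type _))
  ext c
  constructor
  · intro h
    obtain ⟨x, rfl⟩ := ConjClasses.exists_rep c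
    exact ⟨x, h x (ConjClasses.mem_carrier_mk), rfl⟩
  · rintro ⟨x, hx, rfl⟩ y hy
    rw [ConjClasses.mem_carrier_iff_mk_eq, ConjClasses.mk_eq_mk_iff_isConj] at hy
    exact PE.isConj hx hy.symm

theorem PE_iff_pow [Finite G] {p : ℕ} (hp : p.Prime) (x : G) : PE {p} x ↔ ∃ k, orderOf x = p ^ k := by
  constructor
  · intro h
    refine ⟨_, Nat.eq_prime_pow_of_unique_prime_dvd (orderOf_pos x).ne' ?_⟩
    intro d hd hdx
    exact h d hd hdx
  · rintro ⟨k, hk⟩ r hr hd
    rw [hk] at hd
    exact (Nat.prime_dvd_prime_iff_eq hr hp).1 (hr.dvd_of_dvd_pow hd)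

theorem kpi_sylow [Finite G] {p : ℕ} [hp : Fact p.Prime] (P : Sylow p G) : kpi {p} G = (ConjClasses.mk '' (P : Set G)).ncard := by
  rw [kpi]
  congr 1
  ext c
  constructor
  · rintro ⟨x, hx, rfl⟩
    obtain ⟨k, hk⟩ := (PE_iff_pow hp.out x).1 hx
    have h1 : IsPGroup p (zpowers x) := by
      apply IsPGroup.of_card (n := k)
      rw [Nat.card_zpowers, hk]
    obtain ⟨Q, hQ⟩ := h1.exists_le_sylow
    obtain ⟨g, hg⟩ := MulAction.exists_smul_eq G Q P
    refine ⟨g * x * g⁻¹, ?_, ConjClasses.mk_eq_mk_iff_isConj.2 (isConj_iff.2 ⟨g⁻¹, by group⟩)⟩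
    rw [← hg]
    show g * x * g⁻¹ ∈ (g • Q : Sylow p G)
    rw [← MulAut.conj_apply]
    exact Subgroup.smul_mem_pointwise_smul _ _ _ (hQ (mem_zpowers x))
  · rintro ⟨x, hx, rfl⟩
    refine ⟨x, ?_, rfl⟩
    obtain ⟨k, hk⟩ := IsPGroup.iff_orderOf.1 P.isPGroup' ⟨x, hx⟩
    rw [Subgroup.orderOf_mk] at hk
    exact (PE_iff_pow hp.out x).2 ⟨k, hk⟩

end Defs

section Quot

variable {G : Type u} [Group G] [Finite G] {p : ℕ} [hp : Fact p.Prime]

theorem conj_of_mod (N : Subgroup G) [N.Normal] (hN : (Nat.card N).Coprime p) {x y : G} (hx : PE {p} x) (hy : PE {p} y)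
    (hxy : x⁻¹ * y ∈ N) : IsConj x y := by
  obtain ⟨k, hk⟩ := (PE_iff_pow hp.out x).1 hx
  obtain ⟨l, hl⟩ := (PE_iff_pow hp.out y).1 hy
  set H := N ⊔ zpowers x with hH
  have hxH : x ∈ H := (le_sup_right : zpowers x ≤ H) (mem_zpowers x)
  have hNH : N ≤ H := le_sup_left
  have hyH : y ∈ H := by
    have : y = x * (x⁻¹ * y) := by group
    rw [this]
    exact H.mul_mem hxH (hNH hxy)
  have hxp : IsPGroup p (zpowers x) := IsPGroup.of_card (n := k) (by rw [Nat.card_zpowers, hk])
  have hyp : IsPGroup p (zpowers y) := IsPGroup.of_card (n := l) (by rw [Nat.card_zpowers, hl])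
  -- the Sylow subgroup of `H`
  set S := (zpowers x).subgroupOf H with hS
  have hSp : IsPGroup p S := hxp.comap_subtype
  have hdisj : N ⊓ zpowers x = ⊥ := by
    apply (Subgroup.disjoint_of_coprime_natCard (H := N) (K := zpowers x) ?_).eq_bot
    rw [Nat.card_zpowers, hk]
    exact Nat.Coprime.pow_right k hN
  have hcardH : Nat.card H = Nat.card N * Nat.card (zpowers x) := by
    have h1 := CfsgLib.Coprime.card_sup_mul_card_inf (H := zpowers x) (N := N) (by rw [normalizer_eq_top]; exact le_top)
    rw [inf_comm, hdisj, Subgroup.card_bot, mul_one, sup_comm, mul_comm] at h1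
    exact h1
  have hSi : ¬ p ∣ S.index := by
    have h1 := Subgroup.card_mul_index S
    have h2 : Nat.card S = Nat.card (zpowers x) :=
      Nat.card_congr (Subgroup.subgroupOfEquivOfLe (le_sup_right : zpowers x ≤ H)).toEquiv
    rw [h2, hcardH, mul_comm] at h1
    have h3 : S.index = Nat.card N := Nat.eq_of_mul_eq_mul_right Nat.card_pos h1
    rw [h3]
    exact (Nat.Prime.coprime_iff_not_dvd hp.out).1 (Nat.coprime_comm.1 hN)
  set S' : Sylow p H := hSp.toSylow hSi with hS'
  have hyT : IsPGroup p (zpowers (⟨y, hyH⟩ : H)) := by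
    apply IsPGroup.of_card (n := l)
    rw [Nat.card_zpowers, Subgroup.orderOf_mk, hl]
  obtain ⟨T, hT⟩ := hyT.exists_le_sylow
  obtain ⟨h, hh⟩ := MulAction.exists_smul_eq H T S'
  have h1 : h * ⟨y, hyH⟩ * h⁻¹ ∈ S' := by
    rw [← hh, ← MulAut.conj_apply]
    exact Subgroup.smul_mem_pointwise_smul _ _ _ (hT (mem_zpowers _))
  have h2 : (h : G) * y * (h : G)⁻¹ ∈ zpowers x := by
    have : h * ⟨y, hyH⟩ * h⁻¹ ∈ S := h1
    rw [hS, mem_subgroupOf] at this
    exact this
  obtain ⟨i, hi⟩ := mem_zpowers_iff.1 h2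
  -- modulo `N`
  have h3 : QuotientGroup.mk' N ((h : G) * y * (h : G)⁻¹) = QuotientGroup.mk' N x := by
    have h4 : ∀ w ∈ H, ∃ j : ℤ, QuotientGroup.mk' N w = QuotientGroup.mk' N x ^ j := by
      intro w hw
      rw [hH, ← SetLike.mem_coe, Subgroup.normal_mul, Set.mem_mul] at hw
      obtain ⟨a, ha, b, hb, rfl⟩ := hw
      obtain ⟨j, rfl⟩ := mem_zpowers_iff.1 hb
      refine ⟨j, ?_⟩
      rw [map_mul, map_zpow]
      have : QuotientGroup.mk' N a = 1 := (QuotientGroup.eq_one_iff a).2 ha
      rw [this, one_mul]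
    have h5 : QuotientGroup.mk' N y = QuotientGroup.mk' N x := by
      have h6 : y = x * (x⁻¹ * y) := by group
      have h7 : QuotientGroup.mk' N (x⁻¹ * y) = 1 := (QuotientGroup.eq_one_iff _).2 hxy
      rw [h6, map_mul, h7, mul_one]
    obtain ⟨j, hj⟩ := h4 h h.2
    rw [map_mul, map_mul, map_inv, hj, h5, ← zpow_add_one, ← zpow_neg, ← zpow_add]
    congr 1
    rw [show j + 1 + -j = 1 by ring, zpow_one]
  have h4 : (h : G) * y * (h : G)⁻¹ = x := by
    have h5 : x⁻¹ * ((h : G) * y * (h : G)⁻¹) ∈ N := by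
      rw [← QuotientGroup.eq_one_iff]
      show QuotientGroup.mk' N _ = 1
      rw [map_mul, map_inv, h3, inv_mul_cancel]
    have h6 : x⁻¹ * ((h : G) * y * (h : G)⁻¹) ∈ N ⊓ zpowers x :=
      mem_inf.2 ⟨h5, (zpowers x).mul_mem ((zpowers x).inv_mem (mem_zpowers x)) h2⟩
    rw [hdisj, mem_bot] at h6
    calc (h : G) * y * (h : G)⁻¹ = x * (x⁻¹ * ((h : G) * y * (h : G)⁻¹)) := by group
      _ = x := by rw [h6, mul_one]
  exact (isConj_iff.2 ⟨(h : G), h4⟩).symm

theorem kpi_quot_le (N : Subgroup G) [N.Normal] (hN : (Nat.card N).Coprime p) : kpi {p} G ≤ kpi {p} (G ⧸ N) := by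
  rw [kpi, kpi]
  apply Set.ncard_le_ncard_of_injOn (ConjClasses.map (QuotientGroup.mk' N)) _ _ (Set.toFinite _)
  · rintro _ ⟨x, hx, rfl⟩
    refine ⟨QuotientGroup.mk' N x, ?_, rfl⟩
    intro r hr hd
    exact hx r hr (hd.trans (orderOf_map_dvd _ x))
  · rintro _ ⟨x, hx, rfl⟩ _ ⟨y, hy, rfl⟩ hxy
    have h1 : ConjClasses.mk (QuotientGroup.mk' N x) = ConjClasses.mk (QuotientGroup.mk' N y) := hxy
    rw [ConjClasses.mk_eq_mk_iff_isConj, isConj_iff] at h1
    obtain ⟨c, hc⟩ := h1
    obtain ⟨g, rfl⟩ := QuotientGroup.mk'_surjective N c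
    rw [← map_inv, ← map_mul, ← map_mul] at hc
    have h2 : (g * x * g⁻¹)⁻¹ * y ∈ N := by
      rw [← QuotientGroup.eq_one_iff]
      show QuotientGroup.mk' N _ = 1
      rw [map_mul, map_inv, hc, inv_mul_cancel]
    have h3 := conj_of_mod N hN (hx.conj g) hy h2
    rw [ConjClasses.mk_eq_mk_iff_isConj]
    exact (isConj_iff.2 ⟨g, rfl⟩).trans h3

theorem kpi_central_le (Z : Subgroup G) [Z.Normal] (hZ : Z ≤ center G) : kpi {p} G ≤ Nat.card Z * kpi {p} (G ⧸ Z) := by
  classical
  rw [kpi, kpi]
  set s := ConjClasses.mk '' {x : G | PE {p} x} with hs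
  set t := ConjClasses.mk '' {x : G ⧸ Z | PE {p} x} with ht
  have hsf : s.Finite := Set.toFinite _
  have htf : t.Finite := Set.toFinite _
  rw [Set.ncard_eq_toFinset_card s hsf, Set.ncard_eq_toFinset_card t htf]
  apply Finset.card_le_mul_card_image_of_maps_to (f := ConjClasses.map (QuotientGroup.mk' Z))
  · intro c hc
    rw [Set.Finite.mem_toFinset] at hc ⊢
    obtain ⟨x, hx, rfl⟩ := hc
    refine ⟨QuotientGroup.mk' Z x, ?_, rfl⟩
    intro r hr hd
    exact hx r hr (hd.trans (orderOf_map_dvd _ x))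
  · intro b hb
    obtain ⟨x', rfl⟩ := ConjClasses.exists_rep b
    obtain ⟨x, rfl⟩ := QuotientGroup.mk'_surjective Z x'
    haveI : Fintype Z := Fintype.ofFinite _
    calc _ ≤ ((Finset.univ : Finset Z).image (fun z : Z => ConjClasses.mk (x * z))).card := by
          apply Finset.card_le_card
          intro c hc
          rw [Finset.mem_filter] at hc
          obtain ⟨-, hc⟩ := hc
          obtain ⟨y, rfl⟩ := ConjClasses.exists_rep c
          have h1 : ConjClasses.mk (QuotientGroup.mk' Z y) = ConjClasses.mk (QuotientGroup.mk' Z x) := hc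
          rw [ConjClasses.mk_eq_mk_iff_isConj, isConj_iff] at h1
          obtain ⟨c, hc⟩ := h1
          obtain ⟨g, rfl⟩ := QuotientGroup.mk'_surjective Z c
          rw [← map_inv, ← map_mul, ← map_mul] at hc
          have h2 : x⁻¹ * (g * y * g⁻¹) ∈ Z := by
            rw [← QuotientGroup.eq_one_iff]
            show QuotientGroup.mk' Z _ = 1
            rw [map_mul, map_inv, hc, inv_mul_cancel]
          rw [Finset.mem_image]
          refine ⟨⟨_, h2⟩, Finset.mem_univ _, ?_⟩
          rw [ConjClasses.mk_eq_mk_iff_isConj]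
          show IsConj (x * (x⁻¹ * (g * y * g⁻¹))) y
          rw [mul_inv_cancel_left]
          exact (isConj_iff.2 ⟨g, rfl⟩).symm
      _ ≤ (Finset.univ : Finset Z).card := Finset.card_image_le
      _ = Nat.card Z := by rw [Nat.card_eq_fintype_card]; rfl

/-- lifting a normal complement through a central `p`-subgroup -/
theorem hnpc_of_central_quot (Z : Subgroup G) [Z.Normal] (hZ : Z ≤ center G) (hZp : IsPGroup p Z)
    (h : HasNormalPComplement p (G ⧸ Z)) : HasNormalPComplement p G := by
  obtain ⟨k, hk⟩ := hnpc_iff_pPrimeCore.1 h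
  set L := (pPrimeCore p (G ⧸ Z)).comap (QuotientGroup.mk' Z) with hL
  haveI hLn : L.Normal := inferInstance
  have hLi : L.index = p ^ k := by
    rw [hL, Subgroup.index_comap_of_surjective _ (QuotientGroup.mk'_surjective Z), hk]
  have hZL : Z ≤ L := by
    intro r hr
    rw [hL, Subgroup.mem_comap]
    have h1 : QuotientGroup.mk' Z r = 1 := (QuotientGroup.eq_one_iff r).2 hr
    rw [h1]; exact one_mem _
  apply hnpc_of_normal_index hLn hLi
  set S := Z.subgroupOf L with hS
  have hSp : IsPGroup p S := hZp.comap_subtype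
  have hSi : ¬ p ∣ S.index := by
    have h1 : S.index = Nat.card (pPrimeCore p (G ⧸ Z)) := by
      have h2 := CfsgLib.Cores.card_comap_mk Z (pPrimeCore p (G ⧸ Z))
      have h3 : Nat.card Z * Z.relIndex L = Nat.card L := CfsgLib.Coprime.card_mul_relIndex hZL
      rw [← hL] at h2
      rw [h2] at h3
      exact Nat.eq_of_mul_eq_mul_left Nat.card_pos h3
    rw [h1]
    have h4 : (Nat.card (pPrimeCore p (G ⧸ Z))).Coprime p := CfsgLib.Cores.pPrimeCore_coprime p
    exact (Nat.Prime.coprime_iff_not_dvd hp.out).1 (Nat.coprime_comm.1 h4)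
  apply hnpc_of_central (hSp.toSylow hSi)
  intro x _
  rw [mem_centralizer_iff]
  intro y hy
  have hy' : y ∈ S := hy
  rw [hS, mem_subgroupOf] at hy'
  exact Subtype.ext ((mem_center_iff.1 (hZ hy') (x : G)).symm)

end Quot

/-- the theorem for the prime two -/
theorem two_main (n : ℕ) : ∀ (G : Type u) [Group G] [Finite G], Nat.card G = n → ∀ P : Sylow 2 G,
    Nat.card (P : Subgroup G) < 2 * kpi {2} G → HasNormalPComplement 2 G := by
  haveI : Fact (Nat.Prime 2) := ⟨Nat.prime_two⟩
  induction n using Nat.strong_induction_on with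
  | _ n ih =>
    intro G _ _ hn P hP
    classical
    by_cases hiso : ∃ z ∈ P, z ≠ 1 ∧ ∀ g : G, g * z * g⁻¹ ∈ P → g * z * g⁻¹ = z
    · obtain ⟨z, hzP, hz1, hziso⟩ := hiso
      -- reduce to `O(G) = 1`
      by_cases hO : ∃ N : Subgroup G, N.Normal ∧ (Nat.card N).Coprime 2 ∧ N ≠ ⊥
      · obtain ⟨N, hNn, hN2, hN0⟩ := hO
        apply hnpc_of_quotient_coprime N hN2
        have hlt : Nat.card (G ⧸ N) < n := by
          rw [← hn]
          have h1 : Nat.card G = Nat.card (G ⧸ N) * Nat.card N := Subgroup.card_eq_card_quotient_mul_card_subgroup N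
          have h2 : 1 < Nat.card N := (Subgroup.one_lt_card_iff_ne_bot N).2 hN0
          rw [h1]
          exact lt_mul_of_one_lt_right Nat.card_pos h2
        obtain ⟨P'⟩ : Nonempty (Sylow 2 (G ⧸ N)) := inferInstance
        apply ih _ hlt (G ⧸ N) rfl P'
        have h3 : Nat.card (P' : Subgroup (G ⧸ N)) ≤ Nat.card (P : Subgroup G) := by
          rw [P'.card_eq_multiplicity, P.card_eq_multiplicity]
          apply Nat.pow_le_pow_right (by norm_num)
          have h4 : Nat.card (G ⧸ N) ∣ Nat.card G := Subgroup.card_quotient_dvd_card N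
          exact (Nat.factorization_le_iff_dvd Nat.card_pos.ne' Nat.card_pos.ne').2 h4 2
        calc _ ≤ _ := h3
          _ < _ := hP
          _ ≤ _ := Nat.mul_le_mul_left 2 (kpi_quot_le N hN2)
      · push Not at hO
        -- an isolated involution
        have hzC : ∀ g ∈ P, g * z = z * g := by
          intro g hg
          have h1 := hziso g (mul_mem (mul_mem hg hzP) (inv_mem hg))
          calc g * z = (g * z * g⁻¹) * g := by group
            _ = z * g := by rw [h1]
        obtain ⟨k, hk⟩ := IsPGroup.iff_orderOf.1 P.isPGroup' ⟨z, hzP⟩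
        rw [Subgroup.orderOf_mk] at hk
        have hk0 : k ≠ 0 := by
          rintro rfl
          rw [pow_zero] at hk
          exact hz1 (orderOf_eq_one_iff.1 hk)
        set t := z ^ 2 ^ (k - 1) with ht
        have htord : orderOf t = 2 := by
          rw [ht, orderOf_pow, hk, Nat.gcd_eq_right (pow_dvd_pow 2 (Nat.sub_le _ _)), Nat.pow_div (Nat.sub_le _ _) (by norm_num)]
          have : k - (k - 1) = 1 := by omega
          rw [this, pow_one]
        have htP : t ∈ P := Subgroup.pow_mem _ hzP _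
        have htiso : ∀ g : G, g * t * g⁻¹ ∈ P → g * t * g⁻¹ = t := by
          intro g hg
          set s := g * t * g⁻¹ with hs
          set C := Subgroup.centralizer ({s} : Set G) with hC
          have hzs : z ∈ C := by
            rw [hC, Subgroup.mem_centralizer_singleton_iff]
            exact (hzC s hg).symm
          have hzs' : g * z * g⁻¹ ∈ C := by
            rw [hC, Subgroup.mem_centralizer_singleton_iff, hs, ht]
            have h1 : z * z ^ 2 ^ (k - 1) = z ^ 2 ^ (k - 1) * z := by rw [← pow_succ, ← pow_succ']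
            calc g * z * g⁻¹ * (g * z ^ 2 ^ (k - 1) * g⁻¹) = g * (z * z ^ 2 ^ (k - 1)) * g⁻¹ := by group
              _ = g * (z ^ 2 ^ (k - 1) * z) * g⁻¹ := by rw [h1]
              _ = _ := by group
          -- Sylow subgroups of `C`
          have hz2 : IsPGroup 2 (zpowers (⟨z, hzs⟩ : C)) := by
            apply IsPGroup.of_card (n := k)
            rw [Nat.card_zpowers, Subgroup.orderOf_mk, hk]
          have hz2' : IsPGroup 2 (zpowers (⟨g * z * g⁻¹, hzs'⟩ : C)) := by
            apply IsPGroup.of_card (n := k)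
            rw [Nat.card_zpowers, Subgroup.orderOf_mk]
            have := orderOf_injective (MulAut.conj g).toMonoidHom (MulAut.conj g).injective z
            simp only [MulEquiv.toMonoidHom_eq_coe, MonoidHom.coe_coe, MulAut.conj_apply] at this
            rw [this, hk]
          obtain ⟨S, hS⟩ := hz2.exists_le_sylow
          obtain ⟨S', hS'⟩ := hz2'.exists_le_sylow
          obtain ⟨c, hc⟩ := MulAction.exists_smul_eq C S' S
          have h1 : c * ⟨g * z * g⁻¹, hzs'⟩ * c⁻¹ ∈ S := by
            rw [← hc, ← MulAut.conj_apply]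
            exact Subgroup.smul_mem_pointwise_smul _ _ _ (hS' (mem_zpowers _))
          have hSG : IsPGroup 2 ((S : Subgroup C).map C.subtype) := S.isPGroup'.map _
          obtain ⟨P', hP'⟩ := hSG.exists_le_sylow
          obtain ⟨h, hh⟩ := MulAction.exists_smul_eq G P' P
          have h2 : h * z * h⁻¹ ∈ P := by
            rw [← hh, ← MulAut.conj_apply]
            exact Subgroup.smul_mem_pointwise_smul _ _ _ (hP' ⟨⟨z, hzs⟩, hS (mem_zpowers _), rfl⟩)
          have h3 : h * ((c : G) * (g * z * g⁻¹) * (c : G)⁻¹) * h⁻¹ ∈ P := by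
            rw [← hh, ← MulAut.conj_apply]
            exact Subgroup.smul_mem_pointwise_smul _ _ _ (hP' ⟨_, h1, rfl⟩)
          have h4 := hziso h h2
          have h5 := hziso (h * c * g) (by
            have : h * ↑c * g * z * (h * ↑c * g)⁻¹ = h * ((c : G) * (g * z * g⁻¹) * (c : G)⁻¹) * h⁻¹ := by group
            rw [this]; exact h3)
          have h6 : (c : G) * g * z * ((c : G) * g)⁻¹ = z := by
            have h7 : (c : G) * g * z * ((c : G) * g)⁻¹ = h⁻¹ * (h * c * g * z * (h * c * g)⁻¹) * h := by group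
            rw [h7, h5]
            calc h⁻¹ * z * h = h⁻¹ * (h * z * h⁻¹) * h := by rw [h4]
              _ = z := by group
          have h8 : (c : G) * g * t * ((c : G) * g)⁻¹ = t := by
            rw [ht, ← conj_pow, h6]
          have h9 : (c : G) * s = s * c := by
            exact Subgroup.mem_centralizer_singleton_iff.1 c.2
          calc s = s * c * (c : G)⁻¹ := by group
            _ = c * s * (c : G)⁻¹ := by rw [h9]
            _ = (c : G) * g * t * ((c : G) * g)⁻¹ := by rw [hs]; group
            _ = t := h8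
        obtain ⟨N, hNn, hNodd, hNc⟩ := Cfsg.Agent.S0215.result P t htord htP htiso
        have hN0 : N = ⊥ := hO N hNn (by rwa [Nat.coprime_comm, Nat.coprime_two_left])
        have htc : t ∈ center G := by
          rw [mem_center_iff]
          intro g
          have h1 := hNc g
          rw [hN0, mem_bot] at h1
          calc g * t = g * t := rfl
            _ = (t * g * t⁻¹ * g⁻¹)⁻¹ * (t * g) := by group
            _ = t * g := by rw [h1]; group
        set Z := zpowers t with hZ
        have hZc : Z ≤ center G := by rw [hZ, zpowers_le]; exact htc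
        haveI hZn : Z.Normal := by
          refine ⟨fun w hw g => ?_⟩
          rw [mem_center_iff.1 (hZc hw) g, mul_inv_cancel_right]
          exact hw
        have hZcard : Nat.card Z = 2 := by rw [hZ, Nat.card_zpowers, htord]
        have hZp : IsPGroup 2 Z := IsPGroup.of_card (n := 1) (by rw [hZcard, pow_one])
        apply hnpc_of_central_quot Z hZc hZp
        have h1 : Nat.card G = Nat.card (G ⧸ Z) * Nat.card Z := Subgroup.card_eq_card_quotient_mul_card_subgroup Z
        have hlt : Nat.card (G ⧸ Z) < n := by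
          rw [← hn, h1, hZcard]
          have : 0 < Nat.card (G ⧸ Z) := Nat.card_pos
          omega
        obtain ⟨P'⟩ : Nonempty (Sylow 2 (G ⧸ Z)) := inferInstance
        apply ih _ hlt (G ⧸ Z) rfl P'
        have h3 : 2 * Nat.card (P' : Subgroup (G ⧸ Z)) = Nat.card (P : Subgroup G) := by
          rw [P'.card_eq_multiplicity, P.card_eq_multiplicity, h1, hZcard,
            Nat.factorization_mul Nat.card_pos.ne' (by norm_num), Finsupp.add_apply, Nat.Prime.factorization_self Nat.prime_two,
            pow_succ, mul_comm]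
        have h4 := kpi_central_le (p := 2) Z hZc
        rw [hZcard] at h4
        omega
    · push Not at hiso
      have h1 : 2 * (ConjClasses.mk '' (P : Set G)).ncard ≤ (P : Set G).ncard + (2 - 1) * ({1} : Set G).ncard := by
        apply count_fib' _ _ (Set.toFinite _) (Set.toFinite _) _ 2 (by norm_num)
        intro x hx hx1
        obtain ⟨g, hg, hgne⟩ := hiso x hx (fun h => hx1 (by rw [h]; rfl))
        refine ⟨{x, g * x * g⁻¹}, Finset.card_pair hgne.symm, ?_⟩
        intro y hy
        rw [Finset.mem_insert, Finset.mem_singleton] at hy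
        rcases hy with rfl | rfl
        · exact ⟨hx, rfl⟩
        · exact ⟨hg, ConjClasses.mk_eq_mk_iff_isConj.2 (isConj_iff.2 ⟨g, rfl⟩).symm⟩
      rw [← kpi_sylow P, Set.ncard_singleton] at h1
      have h2 : (P : Set G).ncard = Nat.card (P : Subgroup G) := (Nat.card_coe_set_eq _).symm
      rw [h2] at h1
      have hk := P.card_eq_multiplicity
      have hk0 : (Nat.card G).factorization 2 = 0 := by
        by_contra hne
        obtain ⟨m, hm⟩ := Nat.exists_eq_succ_of_ne_zero hne
        rw [hm, pow_succ] at hk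
        omega
      apply hnpc_of_coprime
      rw [Nat.coprime_comm, Nat.Prime.coprime_iff_not_dvd Nat.prime_two]
      intro hd
      exact absurd hk0 (Nat.Prime.factorization_pos_of_dvd Nat.prime_two Nat.card_pos.ne' hd).ne'

end CfsgLib.KPi
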