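import Cfsg.Agent.LibKPi

set_option autoImplicit false

/-!
Numbers of conjugacy classes of `π`-elements, part 2 (helper4).
-/

namespace CfsgLib.KPi2

open Subgroup Cfsg CfsgLib.Npc9 CfsgLib.KPi
open scoped commutatorElement

universe u v

section Odd

variable {K : Type u} [Group K] [Finite K] {r : ℕ} [hr : Fact r.Prime]

theorem odd_sq (hodd : Odd (Nat.card K)) {a x : K} (h : a * (a * x * a⁻¹) * a⁻¹ = x) : a * x * a⁻¹ = x := by
  obtain ⟨m, hm⟩ := hodd
  have h1 : ∀ k : ℕ, (a ^ 2) ^ k * x * ((a ^ 2) ^ k)⁻¹ = x := by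
    intro k
    induction k with
    | zero => simp
    | succ k ih =>
      have h2 : a ^ 2 * x * (a ^ 2)⁻¹ = x := by
        have h2' : a * (a * x * a⁻¹) * a⁻¹ = a ^ 2 * x * (a ^ 2)⁻¹ := by rw [pow_two]; group
        rw [← h2']
        exact h
      calc (a ^ 2) ^ (k + 1) * x * ((a ^ 2) ^ (k + 1))⁻¹ = (a ^ 2) ^ k * (a ^ 2 * x * (a ^ 2)⁻¹) * ((a ^ 2) ^ k)⁻¹ := by
            rw [pow_succ]; group
        _ = x := by rw [h2, ih]
  have h3 := h1 (m + 1)
  have h4 : (a ^ 2) ^ (m + 1) = a := by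
    rw [← pow_mul]
    have h5 : 2 * (m + 1) = Nat.card K + 1 := by omega
    rw [h5, pow_succ, pow_card_eq_one', one_mul]
  rw [h4] at h3
  exact h3

theorem odd_main (hodd : Odd (Nat.card K)) (R : Sylow r K) (h : Nat.card (R : Subgroup K) < 2 * kpi {r} K) :
    normalizer ((R : Subgroup K) : Set K) ≤ centralizer ((R : Subgroup K) : Set K) := by
  classical
  set NR := normalizer ((R : Subgroup K) : Set K) with hNR
  set F := (R : Subgroup K) ⊓ centralizer (NR : Set K) with hF
  have hr2 : r ≠ 2 ∨ Nat.card (R : Subgroup K) = 1 := by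
    by_cases h2 : r = 2
    · right
      have h3 := R.card_eq_multiplicity
      rw [h3, Nat.factorization_eq_zero_of_not_dvd, pow_zero]
      rw [h2]
      exact hodd.not_two_dvd_nat
    · exact Or.inl h2
  have hcount : 3 * kpi {r} K ≤ Nat.card (R : Subgroup K) + 2 * Nat.card F := by
    rw [kpi_sylow R]
    have h1 : 3 * (ConjClasses.mk '' (R : Set K)).ncard ≤ (R : Set K).ncard + (3 - 1) * (F : Set K).ncard := by
      apply count_fib' _ _ (Set.toFinite _) (Set.toFinite _) _ 3 (by norm_num)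
      intro x hx hxF
      obtain ⟨a, haN, hax⟩ : ∃ a ∈ NR, a * x * a⁻¹ ≠ x := by
        by_contra hcon
        push Not at hcon
        apply hxF
        refine mem_inf.2 ⟨hx, mem_centralizer_iff.2 fun a ha => ?_⟩
        calc a * x = (a * x * a⁻¹) * a := by group
          _ = x * a := by rw [hcon a ha]
      have hx1 : a * x * a⁻¹ ∈ R := (mem_normalizer_iff.1 haN x).1 hx
      have hx2 : a * (a * x * a⁻¹) * a⁻¹ ∈ R := (mem_normalizer_iff.1 haN _).1 hx1
      have hne1 : x ≠ a * x * a⁻¹ := hax.symm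
      have hne2 : a * x * a⁻¹ ≠ a * (a * x * a⁻¹) * a⁻¹ := by
        intro heq
        apply hax
        have h2 : a * x = a * (a * x * a⁻¹) := mul_right_cancel heq
        exact (mul_left_cancel h2).symm
      have hne3 : x ≠ a * (a * x * a⁻¹) * a⁻¹ := fun heq => hax (odd_sq hodd heq.symm)
      refine ⟨{x, a * x * a⁻¹, a * (a * x * a⁻¹) * a⁻¹}, ?_, ?_⟩
      · rw [Finset.card_insert_of_notMem, Finset.card_pair hne2]
        rw [Finset.mem_insert, Finset.mem_singleton]
        exact not_or.2 ⟨hne1, hne3⟩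
      · intro y hy
        rw [Finset.mem_insert, Finset.mem_insert, Finset.mem_singleton] at hy
        rcases hy with rfl | rfl | rfl
        · exact ⟨hx, rfl⟩
        · exact ⟨hx1, ConjClasses.mk_eq_mk_iff_isConj.2 (isConj_iff.2 ⟨a, rfl⟩).symm⟩
        · refine ⟨hx2, ConjClasses.mk_eq_mk_iff_isConj.2 (isConj_iff.2 ⟨a * a, ?_⟩).symm⟩
          group
    exact h1
  have hFR : F ≤ (R : Subgroup K) := inf_le_left
  have hidx : Nat.card F * F.relIndex (R : Subgroup K) = Nat.card (R : Subgroup K) := CfsgLib.Coprime.card_mul_relIndex hFR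
  set i := F.relIndex (R : Subgroup K) with hi
  have hF0 : 0 < Nat.card F := Nat.card_pos
  have hi4 : i < 4 := by
    by_contra h4
    push Not at h4
    have h5 : Nat.card F * 4 ≤ Nat.card (R : Subgroup K) := by
      rw [← hidx]; exact Nat.mul_le_mul_left _ h4
    omega
  -- `i` is an odd power of `r`
  obtain ⟨n, hn⟩ := IsPGroup.iff_card.1 R.isPGroup'
  have hidvd : i ∣ r ^ n := by rw [← hn, ← hidx]; exact Dvd.intro_left _ rfl
  have hiodd : Odd i := by
    apply Odd.of_dvd_nat (n := Nat.card K) hodd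
    refine dvd_trans ?_ (Subgroup.card_subgroup_dvd_card (R : Subgroup K))
    rw [← hidx]
    exact Dvd.intro_left _ rfl
  have hi0 : i ≠ 0 := fun h0 => by rw [h0, mul_zero] at hidx; exact Nat.card_pos.ne' hidx.symm
  -- the trivial case
  have hcase1 : (R : Subgroup K) ≤ F → NR ≤ centralizer ((R : Subgroup K) : Set K) := by
    intro hle a ha
    rw [mem_centralizer_iff]
    intro x hx
    exact (mem_centralizer_iff.1 (mem_inf.1 (hle hx)).2 a ha).symm
  have hi13 : i = 1 ∨ i = 3 := by
    rcases hiodd with ⟨m, hm⟩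
    omega
  rcases hi13 with h1 | h3
  · exact hcase1 (Subgroup.relIndex_eq_one.1 h1)
  -- index three
  have hr3 : r = 3 := by
    rw [h3] at hidvd
    exact ((Nat.prime_dvd_prime_iff_eq Nat.prime_three hr.out).1 (Nat.prime_three.dvd_of_dvd_pow hidvd)).symm
  have hRN : (R : Subgroup K) ≤ NR := le_normalizer
  -- `R` is abelian
  have hFc : ∀ f ∈ F, ∀ x ∈ NR, x * f = f * x := fun f hf x hx => mem_centralizer_iff.1 (mem_inf.1 hf).2 x hx
  have hNF : NR ≤ normalizer (F : Set K) := by
    intro a ha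
    rw [mem_normalizer_iff]
    intro f
    constructor
    · intro hf
      rw [hFc f hf a ha, mul_inv_cancel_right]; exact hf
    · intro hf
      have h5 := hFc _ hf a⁻¹ (inv_mem ha)
      have h6 : a⁻¹ * (a * f * a⁻¹) = f * a⁻¹ := by group
      have h7 : f = a * f * a⁻¹ := by
        have h8 : f * a⁻¹ = a * f * a⁻¹ * a⁻¹ := by rw [← h6, h5]
        exact mul_right_cancel h8
      rw [h7]; exact hf
  -- elements outside `F` generate modulo `F`
  have hgen : ∀ x ∈ (R : Subgroup K), x ∉ F → ∀ y ∈ (R : Subgroup K), y ∈ F ∨ x⁻¹ * y ∈ F ∨ x * y ∈ F := by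
    intro x hx hxF y hy
    haveI : (F.subgroupOf (R : Subgroup K)).Normal := by
      rw [normal_subgroupOf_iff_le_normalizer hFR]
      exact hRN.trans hNF
    have h5 : Nat.card ((R : Subgroup K) ⧸ F.subgroupOf (R : Subgroup K)) = 3 := h3
    set x' : (R : Subgroup K) ⧸ F.subgroupOf (R : Subgroup K) := QuotientGroup.mk ⟨x, hx⟩ with hx'
    have hx'1 : x' ≠ 1 := by
      intro h6
      rw [hx', QuotientGroup.eq_one_iff, mem_subgroupOf] at h6
      exact hxF h6
    haveI : Fact (Nat.Prime 3) := ⟨Nat.prime_three⟩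
    have h6 : orderOf x' = 3 := by
      have h7 : orderOf x' ∣ 3 := by rw [← h5]; exact orderOf_dvd_natCard _
      rcases (Nat.dvd_prime Nat.prime_three).1 h7 with h8 | h8
      · exact absurd (orderOf_eq_one_iff.1 h8) hx'1
      · exact h8
    have h7 : zpowers x' = ⊤ := by
      apply Subgroup.eq_top_of_card_eq
      rw [Nat.card_zpowers, h6, h5]
    set y' : (R : Subgroup K) ⧸ F.subgroupOf (R : Subgroup K) := QuotientGroup.mk ⟨y, hy⟩ with hy'
    have h8 : y' ∈ zpowers x' := h7 ▸ mem_top _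
    rw [mem_zpowers_iff_mem_range_orderOf, Finset.mem_image] at h8
    obtain ⟨j, hj, hjy⟩ := h8
    rw [h6, Finset.mem_range] at hj
    interval_cases j
    · left
      have h9 : y' = 1 := by rw [← hjy, pow_zero]
      rw [hy', QuotientGroup.eq_one_iff, mem_subgroupOf] at h9
      exact h9
    · right; left
      have h9 : x'⁻¹ * y' = 1 := by rw [← hjy, pow_one, inv_mul_cancel]
      have h10 : (QuotientGroup.mk (⟨x, hx⟩⁻¹ * ⟨y, hy⟩) : (R : Subgroup K) ⧸ F.subgroupOf (R : Subgroup K)) = 1 := h9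
      rw [QuotientGroup.eq_one_iff, mem_subgroupOf] at h10
      exact h10
    · right; right
      have h9' : x' ^ 3 = 1 := by rw [← h6]; exact pow_orderOf_eq_one x'
      have h9 : x' * y' = 1 := by rw [← hjy, ← pow_succ']; exact h9'
      have h10 : (QuotientGroup.mk (⟨x, hx⟩ * ⟨y, hy⟩) : (R : Subgroup K) ⧸ F.subgroupOf (R : Subgroup K)) = 1 := h9
      rw [QuotientGroup.eq_one_iff, mem_subgroupOf] at h10
      exact h10
  have hRab : ∀ x ∈ (R : Subgroup K), ∀ y ∈ (R : Subgroup K), x * y = y * x := by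
    intro x hx y hy
    by_cases hxF : x ∈ F
    · exact (hFc x hxF y (hRN hy)).symm
    · rcases hgen x hx hxF y hy with h4 | h4 | h4
      · exact hFc y h4 x (hRN hx)
      · have h5 := hFc _ h4 x (hRN hx)
        calc x * y = x * (x * (x⁻¹ * y)) := by group
          _ = x * ((x⁻¹ * y) * x) := by rw [h5]
          _ = y * x := by group
      · have h5 := hFc _ h4 x⁻¹ (inv_mem (hRN hx))
        calc x * y = (x * y) * x⁻¹ * x := by group
          _ = x⁻¹ * (x * y) * x := by rw [h5]
          _ = y * x := by group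
  apply hcase1
  -- every element of `NR` centralizes `R`
  have key : ∀ a ∈ NR, ∀ x ∈ (R : Subgroup K), a * x * a⁻¹ = x := by
    intro a ha x hx
    by_contra hne
    have hxF : x ∉ F := fun hxF => hne (by rw [hFc x hxF a ha, mul_inv_cancel_right])
    have hx1 : a * x * a⁻¹ ∈ (R : Subgroup K) := (mem_normalizer_iff.1 ha x).1 hx
    -- `x⁻¹ x^a ∈ F`
    have h4 : x⁻¹ * (a * x * a⁻¹) ∈ F := by
      rcases hgen x hx hxF _ hx1 with h5 | h5 | h5
      · exact absurd ((mem_normalizer_iff.1 (hNF ha) x).2 h5) hxF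
      · exact h5
      · -- inversion mod `F` is impossible in odd order
        exfalso
        -- (a²) centralizes x modulo F
        set f := x * (a * x * a⁻¹) with hf
        have h6 : a * x * a⁻¹ = x⁻¹ * f := by rw [hf]; group
        have h7 : a * (a * x * a⁻¹) * a⁻¹ = x := by
          have h8 : a * f * a⁻¹ = f := by rw [hFc f h5 a ha, mul_inv_cancel_right]
          calc a * (a * x * a⁻¹) * a⁻¹ = a * (x⁻¹ * f) * a⁻¹ := by rw [h6]
            _ = (a * x * a⁻¹)⁻¹ * (a * f * a⁻¹) := by group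
            _ = (x⁻¹ * f)⁻¹ * f := by rw [h6, h8]
            _ = f⁻¹ * x * f := by group
            _ = f⁻¹ * (x * f) := by group
            _ = f⁻¹ * (f * x) := by rw [hFc f h5 x (hRN hx)]
            _ = x := by group
        exact hne (odd_sq hodd h7)
    set f := x⁻¹ * (a * x * a⁻¹) with hf
    have h5 : a * x * a⁻¹ = x * f := by rw [hf]; group
    have h6 : ∀ k : ℕ, a ^ k * x * (a ^ k)⁻¹ = x * f ^ k := by
      intro k
      induction k with
      | zero => simp
      | succ k ih =>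
        have h7 : a * f ^ k * a⁻¹ = f ^ k := by
          rw [hFc _ (pow_mem h4 k) a ha, mul_inv_cancel_right]
        calc a ^ (k + 1) * x * (a ^ (k + 1))⁻¹ = a * (a ^ k * x * (a ^ k)⁻¹) * a⁻¹ := by rw [pow_succ']; group
          _ = a * (x * f ^ k) * a⁻¹ := by rw [ih]
          _ = (a * x * a⁻¹) * (a * f ^ k * a⁻¹) := by group
          _ = x * f * f ^ k := by rw [h5, h7]
          _ = x * f ^ (k + 1) := by rw [pow_succ', mul_assoc]
    -- decompose the order of `a`
    obtain ⟨s, m, hm, hcard⟩ := Nat.exists_eq_pow_mul_and_not_dvd (orderOf_pos a).ne' r hr.out.ne_one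
    -- `a ^ m` is an `r`-element, hence in `R`
    have h7 : a ^ m ∈ (R : Subgroup K) := by
      have h8 : IsPGroup r (zpowers (a ^ m)) := by
        have h9 : orderOf (a ^ m) = r ^ s := by
          rw [orderOf_pow, hcard, Nat.gcd_eq_right (Dvd.intro_left _ rfl), Nat.mul_div_cancel _ (Nat.pos_of_ne_zero ?_)]
          rintro rfl
          exact hm (dvd_zero _)
        exact IsPGroup.of_card (n := s) (by rw [Nat.card_zpowers, h9])
      have h10 : zpowers (a ^ m) ≤ NR := by rw [zpowers_le]; exact pow_mem ha m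
      have h11 : IsPGroup r ↥((R : Subgroup K) ⊔ zpowers (a ^ m)) := R.isPGroup'.to_sup_of_normal_left' h8 h10
      have h12 := R.is_maximal' h11 le_sup_left
      rw [← h12]
      exact (le_sup_right : zpowers (a ^ m) ≤ _) (mem_zpowers _)
    have h8 := h6 m
    have h9 : f ^ m = 1 := by
      have h10 : a ^ m * x * (a ^ m)⁻¹ = x := by rw [hRab _ h7 x hx, mul_inv_cancel_right]
      rw [h10] at h8
      exact (mul_eq_left.1 h8.symm)
    have h10 : f ^ r ^ n = 1 := by
      have h11 : f ∈ (R : Subgroup K) := hFR h4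
      have h12 := pow_card_eq_one' (x := (⟨f, h11⟩ : (R : Subgroup K)))
      rw [hn] at h12
      exact congrArg Subtype.val h12
    have h11 : f = 1 := by
      have h12 : orderOf f ∣ m := orderOf_dvd_of_pow_eq_one h9
      have h13 : orderOf f ∣ r ^ n := orderOf_dvd_of_pow_eq_one h10
      have h14 : Nat.Coprime m (r ^ n) := Nat.Coprime.pow_right n (((Nat.Prime.coprime_iff_not_dvd hr.out).2 hm).symm)
      exact orderOf_eq_one_iff.1 (Nat.eq_one_of_dvd_coprimes h14 h12 h13)
    rw [h11, mul_one] at h5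
    exact hne h5
  intro x hx
  refine mem_inf.2 ⟨hx, mem_centralizer_iff.2 fun a ha => ?_⟩
  calc a * x = (a * x * a⁻¹) * a := by group
    _ = x * a := by rw [key a ha x hx]

end Odd

section Fib

/-- the `π`-part of the order -/
noncomputable def pp (π : Finset ℕ) (n : ℕ) : ℕ := π.prod (fun r => r ^ n.factorization r)

theorem pp_mono {π : Finset ℕ} (hπ : ∀ r ∈ π, r.Prime) {m n : ℕ} (hm : m ∣ n) (hn : n ≠ 0) : pp π m ≤ pp π n := by
  apply Finset.prod_le_prod' 
  intro r hr
  apply Nat.pow_le_pow_right (hπ r hr).pos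
  exact (Nat.factorization_le_iff_dvd (ne_zero_of_dvd_ne_zero hn hm) hn).2 hm r

theorem kpi_prime_le {G : Type u} [Group G] [Finite G] {r : ℕ} (hr : r.Prime) :
    kpi {r} G ≤ r ^ (Nat.card G).factorization r := by
  haveI : Fact r.Prime := ⟨hr⟩
  obtain ⟨P⟩ : Nonempty (Sylow r G) := inferInstance
  rw [kpi_sylow P, ← P.card_eq_multiplicity]
  exact Set.ncard_image_le (Set.toFinite _)

theorem fib {G : Type u} [Group G] [Finite G] (σ : Finset ℕ) (hσ : ∀ s ∈ σ, s.Prime) {r : ℕ} (hr : r.Prime) (hrσ : r ∉ σ)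
    (B : ℕ) (hB : ∀ C : Subgroup G, kpi (σ : Set ℕ) C ≤ B) :
    kpi (insert r (σ : Set ℕ)) G ≤ B * kpi {r} G := by
  classical
  -- universal exponent
  set N := Nat.card G with hN
  have hN0 : N ≠ 0 := Nat.card_pos.ne'
  set a := r ^ N.factorization r with ha
  set b := N / r ^ N.factorization r with hb
  have hab : a * b = N := Nat.ordProj_mul_ordCompl_eq_self N r
  have hcop : a.Coprime b := Nat.Coprime.pow_left _ (Nat.coprime_ordCompl hr hN0)
  obtain ⟨m, hm1, hm2⟩ : ∃ m : ℕ, m ≡ 1 [MOD a] ∧ m ≡ 0 [MOD b] := by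
    obtain ⟨m, hm⟩ := Nat.chineseRemainder hcop 1 0
    exact ⟨m, hm⟩
  obtain ⟨l, hl1, hl2⟩ : ∃ l : ℕ, l ≡ 0 [MOD a] ∧ l ≡ 1 [MOD b] := by
    obtain ⟨m, hm⟩ := Nat.chineseRemainder hcop 0 1
    exact ⟨m, hm⟩
  have hml : ∀ x : G, x ^ m * x ^ l = x := by
    intro x
    rw [← pow_add]
    have h1 : m + l ≡ 1 [MOD N] := by
      rw [← hab]
      rw [← Nat.modEq_and_modEq_iff_modEq_mul hcop]
      exact ⟨by simpa using hm1.add hl1, by simpa using hm2.add hl2⟩
    have h2 : x ^ (m + l) = x ^ 1 := by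
      rw [pow_eq_pow_iff_modEq]
      exact h1.of_dvd (by rw [hN]; exact orderOf_dvd_natCard x)
    rw [h2, pow_one]
  have hxm : ∀ x : G, PE {r} (x ^ m) := by
    intro x
    rw [PE_iff_pow hr]
    have h1 : (x ^ m) ^ a = 1 := by
      rw [← pow_mul]
      obtain ⟨c, hc⟩ := (Nat.modEq_zero_iff_dvd.1 hm2)
      rw [hc, show b * c * a = (a * b) * c by ring, hab, pow_mul, pow_card_eq_one', one_pow]
    have h2 : orderOf (x ^ m) ∣ r ^ N.factorization r := orderOf_dvd_of_pow_eq_one h1
    obtain ⟨k, -, hk⟩ := (Nat.dvd_prime_pow hr).1 h2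
    exact ⟨k, hk⟩
  have hxl : ∀ x : G, PE (insert r (σ : Set ℕ)) x → PE (σ : Set ℕ) (x ^ l) := by
    intro x hx s hs hd
    have h1 : s ∈ insert r (σ : Set ℕ) := hx s hs (hd.trans (orderOf_pow_dvd l))
    rcases h1 with h1 | h1
    · exfalso
      subst h1
      have h2 : (x ^ l) ^ b = 1 := by
        rw [← pow_mul]
        obtain ⟨c, hc⟩ := (Nat.modEq_zero_iff_dvd.1 hl1)
        rw [hc, show a * c * b = (a * b) * c by ring, hab, pow_mul, pow_card_eq_one', one_pow]
      have h3 : s ∣ b := hd.trans (orderOf_dvd_of_pow_eq_one h2)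
      exact Nat.not_dvd_ordCompl hs hN0 h3
    · exact h1
  rw [kpi, kpi]
  set S := ConjClasses.mk '' {x : G | PE (insert r (σ : Set ℕ)) x} with hS
  set T := ConjClasses.mk '' {x : G | PE {r} x} with hT
  have hSf : S.Finite := Set.toFinite _
  have hTf : T.Finite := Set.toFinite _
  rw [Set.ncard_eq_toFinset_card S hSf, Set.ncard_eq_toFinset_card T hTf]
  -- the `r`-part on classes
  have hpw : ∀ x y : G, IsConj x y → IsConj (x ^ m) (y ^ m) := by
    intro x y hxy
    obtain ⟨g, rfl⟩ := isConj_iff.1 hxy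
    exact isConj_iff.2 ⟨g, by rw [conj_pow]⟩
  set φ : ConjClasses G → ConjClasses G := Quotient.map' (fun x => x ^ m) hpw with hφ
  have hφmk : ∀ x : G, φ (ConjClasses.mk x) = ConjClasses.mk (x ^ m) := fun x => rfl
  apply Finset.card_le_mul_card_image_of_maps_to (f := φ)
  · intro c hc
    rw [Set.Finite.mem_toFinset] at hc ⊢
    obtain ⟨x, hx, rfl⟩ := hc
    exact ⟨x ^ m, hxm x, rfl⟩
  · intro c hc
    obtain ⟨x, rfl⟩ := ConjClasses.exists_rep c
    set C := centralizer ({x} : Set G) with hC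
    refine le_trans ?_ (hB C)
    rw [kpi]
    set U := ConjClasses.mk '' {y : C | PE (σ : Set ℕ) y} with hU
    have hUf : U.Finite := Set.toFinite _
    rw [Set.ncard_eq_toFinset_card U hUf]
    have hmul : ∀ y z : C, IsConj y z → IsConj (x * (y : G)) (x * (z : G)) := by
      intro y z hyz
      obtain ⟨g, rfl⟩ := isConj_iff.1 hyz
      refine isConj_iff.2 ⟨g, ?_⟩
      have h1 : (g : G) * x = x * g := mem_centralizer_singleton_iff.1 g.2
      show (g : G) * (x * y) * (g : G)⁻¹ = x * ((g : G) * y * (g : G)⁻¹)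
      calc (g : G) * (x * y) * (g : G)⁻¹ = ((g : G) * x) * y * (g : G)⁻¹ := by group
        _ = _ := by rw [h1]; group
    set ψ : ConjClasses C → ConjClasses G := Quotient.lift (fun y : C => ConjClasses.mk (x * (y : G)))
      (fun y z hyz => ConjClasses.mk_eq_mk_iff_isConj.2 (hmul y z hyz)) with hψ
    calc _ ≤ (hUf.toFinset.image ψ).card := by
          apply Finset.card_le_card
          intro d hd
          rw [Finset.mem_filter, Set.Finite.mem_toFinset] at hd
          obtain ⟨⟨y, hy, rfl⟩, hd⟩ := hd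
          rw [hφmk, ConjClasses.mk_eq_mk_iff_isConj] at hd
          obtain ⟨g, hg⟩ := isConj_iff.1 hd
          set y' := g * y * g⁻¹ with hy'
          have hy'm : y' ^ m = x := by rw [hy', conj_pow, hg]
          have hlC : y' ^ l ∈ C := by
            rw [hC, mem_centralizer_singleton_iff, ← hy'm, ← pow_add, ← pow_add, add_comm]
          rw [Finset.mem_image]
          refine ⟨ConjClasses.mk ⟨y' ^ l, hlC⟩, ?_, ?_⟩
          · rw [Set.Finite.mem_toFinset]
            refine ⟨_, ?_, rfl⟩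
            intro s hs hd
            rw [Subgroup.orderOf_mk] at hd
            exact hxl y' (PE.conj hy g) s hs hd
          · show ConjClasses.mk (x * y' ^ l) = ConjClasses.mk y
            rw [← hy'm, hml, ConjClasses.mk_eq_mk_iff_isConj]
            exact (isConj_iff.2 ⟨g, rfl⟩).symm
      _ ≤ _ := Finset.card_image_le

theorem kpi_le_pp (π : Finset ℕ) : (∀ r ∈ π, r.Prime) → ∀ (G : Type u) [Group G] [Finite G],
    kpi (π : Set ℕ) G ≤ pp π (Nat.card G) := by
  classical
  induction π using Finset.induction_on with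
  | empty =>
    intro _ G _ _
    rw [pp, Finset.prod_empty, kpi]
    have h1 : ConjClasses.mk '' {x : G | PE ((∅ : Finset ℕ) : Set ℕ) x} ⊆ {ConjClasses.mk 1} := by
      rintro _ ⟨x, hx, rfl⟩
      have hx1 : orderOf x = 1 := by
        by_contra hne
        obtain ⟨s, hs, hd⟩ := Nat.exists_prime_and_dvd hne
        exact absurd (hx s hs hd) (by simp)
      rw [orderOf_eq_one_iff.1 hx1]
      exact Set.mem_singleton _
    calc _ ≤ ({ConjClasses.mk 1} : Set (ConjClasses G)).ncard := Set.ncard_le_ncard h1 (Set.finite_singleton _)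
      _ = 1 := Set.ncard_singleton _
  | insert r σ hrσ ih =>
    intro hπ G _ _
    have hσ : ∀ s ∈ σ, s.Prime := fun s hs => hπ s (Finset.mem_insert_of_mem hs)
    have hr : r.Prime := hπ r (Finset.mem_insert_self r σ)
    have h1 := fib σ hσ hr hrσ (pp σ (Nat.card G)) (G := G) (fun C =>
      (ih hσ C).trans (pp_mono hσ (Subgroup.card_subgroup_dvd_card C) Nat.card_pos.ne'))
    rw [Finset.coe_insert]
    refine h1.trans ?_
    rw [pp, pp, Finset.prod_insert hrσ, mul_comm]
    exact Nat.mul_le_mul_right _ (kpi_prime_le hr)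

theorem kpi_le_mul (π : Finset ℕ) (hπ : ∀ r ∈ π, r.Prime) {r : ℕ} (hr : r ∈ π) (G : Type u) [Group G] [Finite G] :
    kpi (π : Set ℕ) G ≤ pp (π.erase r) (Nat.card G) * kpi {r} G := by
  classical
  have hσ : ∀ s ∈ π.erase r, s.Prime := fun s hs => hπ s (Finset.mem_of_mem_erase hs)
  have h1 := fib (π.erase r) hσ (hπ r hr) (Finset.notMem_erase r π) (pp (π.erase r) (Nat.card G)) (G := G) (fun C =>
      (kpi_le_pp _ hσ C).trans (pp_mono hσ (Subgroup.card_subgroup_dvd_card C) Nat.card_pos.ne'))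
  have h2 : insert r ((π.erase r : Finset ℕ) : Set ℕ) = (π : Set ℕ) := by
    rw [← Finset.coe_insert, Finset.insert_erase hr]
  rw [h2] at h1
  exact h1

theorem prime_of_pi (π : Finset ℕ) (hπ : ∀ r ∈ π, r.Prime) {r : ℕ} (hr : r ∈ π) (G : Type u) [Group G] [Finite G]
    (h : pp π (Nat.card G) < 2 * kpi (π : Set ℕ) G) : r ^ (Nat.card G).factorization r < 2 * kpi {r} G := by
  classical
  have h1 := kpi_le_mul π hπ hr G
  have h2 : pp π (Nat.card G) = r ^ (Nat.card G).factorization r * pp (π.erase r) (Nat.card G) := by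
    rw [pp, pp]
    exact (Finset.mul_prod_erase π (fun s => s ^ (Nat.card G).factorization s) hr).symm
  rw [h2] at h
  have h3 : pp (π.erase r) (Nat.card G) * (r ^ (Nat.card G).factorization r) < pp (π.erase r) (Nat.card G) * (2 * kpi {r} G) := by
    calc _ = _ := mul_comm _ _
      _ < _ := h
      _ ≤ 2 * (pp (π.erase r) (Nat.card G) * kpi {r} G) := Nat.mul_le_mul_left 2 h1
      _ = _ := by ring
  exact lt_of_mul_lt_mul_left h3 (Nat.zero_le _)

end Fib

end CfsgLib.KPi2
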