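import Cfsg.Agent.LibLE13
import Cfsg.Agent.LibDick9C

/-! The affine group `Qd(F)` (seat helper10). -/

set_option autoImplicit false
set_option linter.all false

namespace CfsgLib.KQd

open Subgroup Cfsg Matrix CfsgLib.Dick9

variable {F : Type*} [Field F]

def af (m : Matrix.SpecialLinearGroup (Fin 2) F) (u v : F) : Matrix.SpecialLinearGroup (Fin 3) F :=
  ⟨!![m 0 0, m 0 1, u; m 1 0, m 1 1, v; 0, 0, 1], by
    have d := det_eq m
    rw [Matrix.det_fin_three]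
    simp
    linear_combination d⟩

theorem af_coe (m : Matrix.SpecialLinearGroup (Fin 2) F) (u v : F) :
    ((af m u v : Matrix.SpecialLinearGroup (Fin 3) F) : Matrix (Fin 3) (Fin 3) F) = !![m 0 0, m 0 1, u; m 1 0, m 1 1, v; 0, 0, 1] := rfl

theorem af_mul (m n : Matrix.SpecialLinearGroup (Fin 2) F) (u v u' v' : F) :
    af m u v * af n u' v' = af (m * n) (u + (m 0 0 * u' + m 0 1 * v')) (v + (m 1 0 * u' + m 1 1 * v')) := by
  apply Subtype.ext
  rw [Matrix.SpecialLinearGroup.coe_mul, af_coe, af_coe, af_coe]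
  ext a b
  fin_cases a <;> fin_cases b <;>
    simp [Matrix.mul_apply, Fin.sum_univ_three, mul00, mul01, mul10, mul11] <;> ring

theorem af_one : af (1 : Matrix.SpecialLinearGroup (Fin 2) F) 0 0 = 1 := by
  apply Subtype.ext
  rw [af_coe, Matrix.SpecialLinearGroup.coe_one]
  ext a b
  fin_cases a <;> fin_cases b <;> simp [one00, one01, one10, one11]

theorem af_inj {m n : Matrix.SpecialLinearGroup (Fin 2) F} {u v u' v' : F} (h : af m u v = af n u' v') :
    m = n ∧ u = u' ∧ v = v' := by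
  have e : ∀ a b, (af m u v : Matrix.SpecialLinearGroup (Fin 3) F) a b = af n u' v' a b := fun a b => by rw [h]
  exact ⟨ext2 (e 0 0) (e 0 1) (e 1 0) (e 1 1), e 0 2, e 1 2⟩

theorem af_inv (m : Matrix.SpecialLinearGroup (Fin 2) F) (u v : F) :
    (af m u v)⁻¹ = af m⁻¹ (-(m⁻¹ 0 0 * u + m⁻¹ 0 1 * v)) (-(m⁻¹ 1 0 * u + m⁻¹ 1 1 * v)) := by
  rw [inv_eq_iff_mul_eq_one, af_mul, mul_inv_cancel, ← af_one]
  have d := det_eq m
  congr 1
  · rw [inv00, inv01, inv10, inv11]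
    linear_combination -u * d
  · rw [inv00, inv01, inv10, inv11]
    linear_combination -v * d

theorem eq_af {M : Matrix.SpecialLinearGroup (Fin 3) F} (h0 : (M : Matrix (Fin 3) (Fin 3) F) 2 0 = 0)
    (h1 : (M : Matrix (Fin 3) (Fin 3) F) 2 1 = 0) (h2 : (M : Matrix (Fin 3) (Fin 3) F) 2 2 = 1) :
    ∃ m u v, M = af m u v := by
  have hd := M.det_coe
  rw [Matrix.det_fin_three, h0, h1, h2] at hd
  refine ⟨⟨!![M 0 0, M 0 1; M 1 0, M 1 1], by rw [Matrix.det_fin_two_of]; linear_combination hd⟩, M 0 2, M 1 2, ?_⟩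
  apply Matrix.SpecialLinearGroup.ext
  intro a b
  fin_cases a <;> fin_cases b
  · rfl
  · rfl
  · rfl
  · rfl
  · rfl
  · rfl
  · exact h0
  · exact h1
  · exact h2

theorem mem_qd {M : Matrix.SpecialLinearGroup (Fin 3) F} : M ∈ qdOver F ↔ ∃ m u v, M = af m u v := by
  constructor
  · intro h
    unfold qdOver at h
    induction h using Subgroup.closure_induction with
    | mem M hM => exact eq_af hM.1 hM.2.1 hM.2.2
    | one => exact ⟨1, 0, 0, af_one.symm⟩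
    | mul M N _ _ hM hN =>
      obtain ⟨m, u, v, rfl⟩ := hM
      obtain ⟨n, u', v', rfl⟩ := hN
      exact ⟨_, _, _, af_mul _ _ _ _ _ _⟩
    | inv M _ hM =>
      obtain ⟨m, u, v, rfl⟩ := hM
      exact ⟨_, _, _, af_inv _ _ _⟩
  · rintro ⟨m, u, v, rfl⟩
    exact Subgroup.subset_closure ⟨rfl, rfl, rfl⟩

theorem af_mem (m : Matrix.SpecialLinearGroup (Fin 2) F) (u v : F) : af m u v ∈ qdOver F := mem_qd.2 ⟨m, u, v, rfl⟩

/-- element of the affine group -/
def el (m : Matrix.SpecialLinearGroup (Fin 2) F) (u v : F) : ↥(qdOver F) := ⟨af m u v, af_mem m u v⟩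

theorem el_mul (m n : Matrix.SpecialLinearGroup (Fin 2) F) (u v u' v' : F) :
    el m u v * el n u' v' = el (m * n) (u + (m 0 0 * u' + m 0 1 * v')) (v + (m 1 0 * u' + m 1 1 * v')) :=
  Subtype.ext (af_mul _ _ _ _ _ _)

theorem el_one : el (1 : Matrix.SpecialLinearGroup (Fin 2) F) 0 0 = 1 := Subtype.ext af_one

theorem el_inj {m n : Matrix.SpecialLinearGroup (Fin 2) F} {u v u' v' : F} (h : el m u v = el n u' v') :
    m = n ∧ u = u' ∧ v = v' := af_inj (congrArg Subtype.val h)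

theorem el_surj (M : ↥(qdOver F)) : ∃ m u v, M = el m u v := by
  obtain ⟨m, u, v, h⟩ := mem_qd.1 M.2
  exact ⟨m, u, v, Subtype.ext h⟩

theorem el1_mul (u v u' v' : F) : el 1 u v * el 1 u' v' = el 1 (u + u') (v + v') := by
  rw [el_mul, one_mul, one00, one01, one10, one11]
  congr 1 <;> ring

theorem el_conj (m : Matrix.SpecialLinearGroup (Fin 2) F) (u v a b : F) :
    el m u v * el 1 a b * (el m u v)⁻¹ = el 1 (m 0 0 * a + m 0 1 * b) (m 1 0 * a + m 1 1 * b) := by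
  rw [mul_inv_eq_iff_eq_mul, el_mul, el_mul, mul_one, one_mul, one00, one01, one10, one11]
  congr 1 <;> ring

theorem el1_pow (u v : F) (n : ℕ) : el 1 u v ^ n = el 1 (n * u) (n * v) := by
  induction n with
  | zero => rw [pow_zero, Nat.cast_zero, zero_mul, zero_mul, el_one]
  | succ n ih =>
    rw [pow_succ, ih, el1_mul]
    congr 1 <;> push_cast <;> ring

/-- the projection onto `SL_2` -/
noncomputable def prf (M : ↥(qdOver F)) : Matrix.SpecialLinearGroup (Fin 2) F := (el_surj M).choose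

theorem prf_el (m : Matrix.SpecialLinearGroup (Fin 2) F) (u v : F) : prf (el m u v) = m := by
  obtain ⟨u', v', h⟩ := (el_surj (el m u v)).choose_spec
  exact (el_inj h).1.symm

noncomputable def pr : ↥(qdOver F) →* Matrix.SpecialLinearGroup (Fin 2) F where
  toFun := prf
  map_one' := by rw [← el_one, prf_el]
  map_mul' := by
    intro M N
    obtain ⟨m, u, v, rfl⟩ := el_surj M
    obtain ⟨n, u', v', rfl⟩ := el_surj N
    rw [el_mul, prf_el, prf_el, prf_el]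

theorem pr_el (m : Matrix.SpecialLinearGroup (Fin 2) F) (u v : F) : pr (el m u v) = m := prf_el m u v

theorem pr_surj : Function.Surjective (pr : ↥(qdOver F) →* Matrix.SpecialLinearGroup (Fin 2) F) := fun m => ⟨el m 0 0, pr_el m 0 0⟩

/-- the section -/
def sc : Matrix.SpecialLinearGroup (Fin 2) F →* ↥(qdOver F) where
  toFun m := el m 0 0
  map_one' := el_one
  map_mul' := by intro m n; rw [el_mul]; congr 1 <;> ring

theorem mem_ker {M : ↥(qdOver F)} : M ∈ (pr : ↥(qdOver F) →* Matrix.SpecialLinearGroup (Fin 2) F).ker ↔ ∃ u v, M = el 1 u v := by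
  rw [MonoidHom.mem_ker]
  constructor
  · intro h
    obtain ⟨m, u, v, rfl⟩ := el_surj M
    rw [pr_el] at h
    exact ⟨u, v, by rw [h]⟩
  · rintro ⟨u, v, rfl⟩
    exact pr_el _ _ _

theorem el_coe (m : Matrix.SpecialLinearGroup (Fin 2) F) (u v : F) :
    (((el m u v : ↥(qdOver F)) : Matrix.SpecialLinearGroup (Fin 3) F) : Matrix (Fin 3) (Fin 3) F) = !![m 0 0, m 0 1, u; m 1 0, m 1 1, v; 0, 0, 1] := rfl

theorem mem_ker' {M : ↥(qdOver F)} : M ∈ (pr : ↥(qdOver F) →* Matrix.SpecialLinearGroup (Fin 2) F).ker ↔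
    (((M : Matrix.SpecialLinearGroup (Fin 3) F) : Matrix (Fin 3) (Fin 3) F) 0 0 = 1 ∧ ((M : Matrix.SpecialLinearGroup (Fin 3) F) : Matrix (Fin 3) (Fin 3) F) 0 1 = 0 ∧ ((M : Matrix.SpecialLinearGroup (Fin 3) F) : Matrix (Fin 3) (Fin 3) F) 1 0 = 0 ∧ ((M : Matrix.SpecialLinearGroup (Fin 3) F) : Matrix (Fin 3) (Fin 3) F) 1 1 = 1) := by
  rw [mem_ker]
  constructor
  · rintro ⟨u, v, rfl⟩
    exact ⟨one00, one01, one10, one11⟩
  · rintro ⟨h1, h2, h3, h4⟩
    obtain ⟨m, u, v, rfl⟩ := el_surj M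
    refine ⟨u, v, ?_⟩
    have : m = 1 := ext2 (h1.trans one00.symm) (h2.trans one01.symm) (h3.trans one10.symm) (h4.trans one11.symm)
    rw [this]

theorem ker_pGroup {p : ℕ} [Fact p.Prime] [CharP F p] : IsPGroup p ↥(pr : ↥(qdOver F) →* Matrix.SpecialLinearGroup (Fin 2) F).ker := by
  rintro ⟨M, hM⟩
  refine ⟨1, Subtype.ext ?_⟩
  obtain ⟨u, v, rfl⟩ := mem_ker.1 hM
  change (el 1 u v) ^ p ^ 1 = 1
  rw [el1_pow, pow_one, CharP.cast_eq_zero, zero_mul, zero_mul, el_one]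

/-- a `p`-subgroup of `SL_2(F)` has a common fixed vector -/
theorem sl2_fixed {p : ℕ} [hp : Fact p.Prime] [CharP F p] [Finite F] {N : Subgroup (Matrix.SpecialLinearGroup (Fin 2) F)} (hNp : IsPGroup p ↥N) :
    ∃ a b : F, (a ≠ 0 ∨ b ≠ 0) ∧ ∀ n ∈ N, n 0 0 * a + n 0 1 * b = a ∧ n 1 0 * a + n 1 1 * b = b := by
  classical
  letI : MulAction ↥N (F × F) :=
    { smul := fun n v => ((n : Matrix.SpecialLinearGroup (Fin 2) F) 0 0 * v.1 + (n : Matrix.SpecialLinearGroup (Fin 2) F) 0 1 * v.2,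
        (n : Matrix.SpecialLinearGroup (Fin 2) F) 1 0 * v.1 + (n : Matrix.SpecialLinearGroup (Fin 2) F) 1 1 * v.2)
      one_smul := fun v => by
        apply Prod.ext
        · change (1 : Matrix.SpecialLinearGroup (Fin 2) F) 0 0 * v.1 + (1 : Matrix.SpecialLinearGroup (Fin 2) F) 0 1 * v.2 = v.1
          rw [one00, one01]; ring
        · change (1 : Matrix.SpecialLinearGroup (Fin 2) F) 1 0 * v.1 + (1 : Matrix.SpecialLinearGroup (Fin 2) F) 1 1 * v.2 = v.2
          rw [one10, one11]; ring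
      mul_smul := fun a b v => by
        apply Prod.ext
        · change ((a : Matrix.SpecialLinearGroup (Fin 2) F) * b) 0 0 * v.1 + ((a : Matrix.SpecialLinearGroup (Fin 2) F) * b) 0 1 * v.2 = (a : Matrix.SpecialLinearGroup (Fin 2) F) 0 0 * ((b : Matrix.SpecialLinearGroup (Fin 2) F) 0 0 * v.1 + (b : Matrix.SpecialLinearGroup (Fin 2) F) 0 1 * v.2) + (a : Matrix.SpecialLinearGroup (Fin 2) F) 0 1 * ((b : Matrix.SpecialLinearGroup (Fin 2) F) 1 0 * v.1 + (b : Matrix.SpecialLinearGroup (Fin 2) F) 1 1 * v.2)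
          rw [mul00, mul01]; ring
        · change ((a : Matrix.SpecialLinearGroup (Fin 2) F) * b) 1 0 * v.1 + ((a : Matrix.SpecialLinearGroup (Fin 2) F) * b) 1 1 * v.2 = (a : Matrix.SpecialLinearGroup (Fin 2) F) 1 0 * ((b : Matrix.SpecialLinearGroup (Fin 2) F) 0 0 * v.1 + (b : Matrix.SpecialLinearGroup (Fin 2) F) 0 1 * v.2) + (a : Matrix.SpecialLinearGroup (Fin 2) F) 1 1 * ((b : Matrix.SpecialLinearGroup (Fin 2) F) 1 0 * v.1 + (b : Matrix.SpecialLinearGroup (Fin 2) F) 1 1 * v.2)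
          rw [mul10, mul11]; ring }
  have hs : ∀ (n : ↥N) (v : F × F), n • v = ((n : Matrix.SpecialLinearGroup (Fin 2) F) 0 0 * v.1 + (n : Matrix.SpecialLinearGroup (Fin 2) F) 0 1 * v.2,
        (n : Matrix.SpecialLinearGroup (Fin 2) F) 1 0 * v.1 + (n : Matrix.SpecialLinearGroup (Fin 2) F) 1 1 * v.2) := fun _ _ => rfl
  have hdvd : p ∣ Nat.card (F × F) := by
    haveI : Fintype F := Fintype.ofFinite F
    obtain ⟨n, -, hn⟩ := FiniteField.card F p
    rw [Nat.card_prod, Nat.card_eq_fintype_card, hn]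
    exact (dvd_pow_self p n.pos.ne').mul_right _
  obtain ⟨v, hv, hv0⟩ := hNp.exists_fixed_point_of_prime_dvd_card_of_fixed_point (α := F × F) hdvd (a := 0) (by
    intro n; rw [hs]; simp)
  refine ⟨v.1, v.2, ?_, ?_⟩
  · by_contra hcon
    push Not at hcon
    apply hv0
    exact Prod.ext hcon.1.symm hcon.2.symm
  · intro n hn
    have := hv ⟨n, hn⟩
    rw [hs] at this
    exact ⟨congrArg Prod.fst this, congrArg Prod.snd this⟩

/-- a normal `p`-subgroup of `SL_2(F)` is trivial -/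
theorem sl2_core {p : ℕ} [hp : Fact p.Prime] [CharP F p] [Finite F] {N : Subgroup (Matrix.SpecialLinearGroup (Fin 2) F)} (hN : N.Normal) (hNp : IsPGroup p ↥N) :
    N = ⊥ := by
  obtain ⟨a, b, hab, hfix⟩ := sl2_fixed hNp
  -- move `v` to the first basis vector
  obtain ⟨g, hg0, hg1⟩ : ∃ g : Matrix.SpecialLinearGroup (Fin 2) F, g 0 0 = a ∧ g 1 0 = b := by
    by_cases h0 : a = 0
    · have h1 : b ≠ 0 := hab.resolve_left (not_not.2 h0)
      exact ⟨⟨!![a, -b⁻¹; b, 0], by rw [Matrix.det_fin_two_of]; field_simp; ring⟩, rfl, rfl⟩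
    · exact ⟨⟨!![a, 0; b, a⁻¹], by rw [Matrix.det_fin_two_of]; field_simp; ring⟩, rfl, rfl⟩
  have hdg := det_eq g
  have hfix' : ∀ n ∈ N, n 0 0 = 1 ∧ n 1 0 = 0 := by
    intro n hn
    obtain ⟨e1, e2⟩ := hfix _ (hN.conj_mem n hn g)
    rw [← hg0, ← hg1] at e1 e2
    simp only [mul00, mul01, mul10, mul11, inv00, inv01, inv10, inv11] at e1 e2
    have f1 : g 0 0 * n 0 0 + g 0 1 * n 1 0 = g 0 0 := by linear_combination e1 - (g 0 0 * n 0 0 + g 0 1 * n 1 0) * hdg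
    have f2 : g 1 0 * n 0 0 + g 1 1 * n 1 0 = g 1 0 := by linear_combination e2 - (g 1 0 * n 0 0 + g 1 1 * n 1 0) * hdg
    constructor
    · linear_combination g 1 1 * f1 - g 0 1 * f2 - (n 0 0 - 1) * hdg
    · linear_combination g 0 0 * f2 - g 1 0 * f1 - (n 1 0) * hdg
  rw [eq_bot_iff]
  intro n hn
  obtain ⟨a00, a10⟩ := hfix' n hn
  have d := det_eq n
  rw [a00, a10, mul_zero, sub_zero, one_mul] at d
  have h2 := (hfix' _ (hN.conj_mem n hn (sw 0))).2
  have s00 : (sw 0 : Matrix.SpecialLinearGroup (Fin 2) F) 0 0 = 0 := rfl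
  have s01 : (sw 0 : Matrix.SpecialLinearGroup (Fin 2) F) 0 1 = 1 := rfl
  have s10 : (sw 0 : Matrix.SpecialLinearGroup (Fin 2) F) 1 0 = -1 := rfl
  have s11 : (sw 0 : Matrix.SpecialLinearGroup (Fin 2) F) 1 1 = 0 := rfl
  simp only [mul00, mul01, mul10, mul11, inv00, inv01, inv10, inv11, s00, s01, s10, s11] at h2
  have a01 : n 0 1 = 0 := by linear_combination -h2
  rw [Subgroup.mem_bot]
  exact ext2 (a00.trans one00.symm) (a01.trans one01.symm) (a10.trans one10.symm) (d.trans one11.symm)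

theorem pCore_eq {p : ℕ} [hp : Fact p.Prime] [CharP F p] [Finite F] :
    pCore p ↥(qdOver F) = (pr : ↥(qdOver F) →* Matrix.SpecialLinearGroup (Fin 2) F).ker := by
  apply le_antisymm
  · have h1 : (pCore p ↥(qdOver F)).map pr = ⊥ := by
      apply sl2_core (p := p)
      · exact Subgroup.Normal.map inferInstance _ pr_surj
      · exact (CfsgLib.LE.pCore_isPGroup p _).map _
    rwa [Subgroup.map_eq_bot_iff] at h1
  · exact le_sSup ⟨inferInstance, ker_pGroup⟩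

/-- the translations as column vectors -/
noncomputable def tr2 : Additive ↥(pr : ↥(qdOver F) →* Matrix.SpecialLinearGroup (Fin 2) F).ker ≃+ (Fin 2 → F) where
  toFun M := ![((((Additive.toMul M : ↥(pr : ↥(qdOver F) →* Matrix.SpecialLinearGroup (Fin 2) F).ker) : ↥(qdOver F)) : Matrix.SpecialLinearGroup (Fin 3) F) : Matrix (Fin 3) (Fin 3) F) 0 2,
    ((((Additive.toMul M : ↥(pr : ↥(qdOver F) →* Matrix.SpecialLinearGroup (Fin 2) F).ker) : ↥(qdOver F)) : Matrix.SpecialLinearGroup (Fin 3) F) : Matrix (Fin 3) (Fin 3) F) 1 2]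
  invFun w := Additive.ofMul ⟨el 1 (w 0) (w 1), mem_ker.2 ⟨_, _, rfl⟩⟩
  left_inv M := by
    obtain ⟨⟨M, hM⟩, rfl⟩ := Additive.ofMul.surjective M
    obtain ⟨u, v, rfl⟩ := mem_ker.1 hM
    rfl
  right_inv w := by
    ext i; fin_cases i <;> rfl
  map_add' M N := by
    obtain ⟨⟨M, hM⟩, rfl⟩ := Additive.ofMul.surjective M
    obtain ⟨⟨N, hN⟩, rfl⟩ := Additive.ofMul.surjective N
    obtain ⟨u, v, rfl⟩ := mem_ker.1 hM
    obtain ⟨u', v', rfl⟩ := mem_ker.1 hN
    have h1 : (Additive.toMul (Additive.ofMul (⟨el 1 u v, hM⟩ : ↥(pr : ↥(qdOver F) →* Matrix.SpecialLinearGroup (Fin 2) F).ker) + Additive.ofMul ⟨el 1 u' v', hN⟩) : ↥(pr : ↥(qdOver F) →* Matrix.SpecialLinearGroup (Fin 2) F).ker) = ⟨el 1 (u + u') (v + v'), mem_ker.2 ⟨_, _, rfl⟩⟩ := by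
      apply Subtype.ext
      exact el1_mul u v u' v'
    rw [h1]
    ext i; fin_cases i <;> rfl

theorem tr2_el (u v : F) (h : el 1 u v ∈ (pr : ↥(qdOver F) →* Matrix.SpecialLinearGroup (Fin 2) F).ker) :
    tr2 (Additive.ofMul ⟨el 1 u v, h⟩) = ![u, v] := by
  ext i; fin_cases i <;> rfl

theorem sc_inj : Function.Injective (sc : Matrix.SpecialLinearGroup (Fin 2) F →* ↥(qdOver F)) := fun m n h => (el_inj h).1

theorem natural : IsNaturalSL2Module F (pr : ↥(qdOver F) →* Matrix.SpecialLinearGroup (Fin 2) F).ker (sc : Matrix.SpecialLinearGroup (Fin 2) F →* ↥(qdOver F)).range := by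
  refine ⟨?_, pr.comp (sc : Matrix.SpecialLinearGroup (Fin 2) F →* ↥(qdOver F)).range.subtype, tr2, ?_, ?_, ?_⟩
  · rw [Subgroup.normalizer_eq_top]; exact le_top
  · intro m
    exact ⟨⟨sc m, ⟨m, rfl⟩⟩, pr_el m 0 0⟩
  · ext ⟨l, m, rfl⟩
    rw [MonoidHom.mem_ker, Subgroup.mem_subgroupOf]
    constructor
    · intro h
      have h1 : m = 1 := (pr_el m 0 0).symm.trans h
      have h2 : (sc m : ↥(qdOver F)) = 1 := by rw [h1, map_one]
      change sc m ∈ _
      rw [h2]; exact one_mem _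
    · intro h
      change pr (sc m) = 1
      have h' : sc m ∈ centralizer (((pr : ↥(qdOver F) →* Matrix.SpecialLinearGroup (Fin 2) F).ker : Subgroup _) : Set ↥(qdOver F)) := h
      have key : ∀ a b : F, m 0 0 * a + m 0 1 * b = a ∧ m 1 0 * a + m 1 1 * b = b := by
        intro a b
        have h1 := Subgroup.mem_centralizer_iff.1 h' (el 1 a b) (mem_ker.2 ⟨a, b, rfl⟩)
        have h2 := el_conj m 0 0 a b
        have h3 : el m 0 0 * el 1 a b * (el m 0 0)⁻¹ = el 1 a b := by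
          rw [mul_inv_eq_iff_eq_mul]; exact h1.symm
        rw [h3] at h2
        exact ⟨(el_inj h2).2.1.symm, (el_inj h2).2.2.symm⟩
      have k1 := key 1 0
      have k2 := key 0 1
      simp only [mul_one, mul_zero, add_zero, zero_add] at k1 k2
      have : m = 1 := ext2 (k1.1.trans one00.symm) (k2.1.trans one01.symm) (k1.2.trans one10.symm) (k2.2.trans one11.symm)
      rw [this]
      exact pr_el 1 0 0
  · rintro ⟨_, m, rfl⟩ ⟨v, hv⟩
    obtain ⟨a, b, rfl⟩ := mem_ker.1 hv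
    refine ⟨⟨el 1 (m 0 0 * a + m 0 1 * b) (m 1 0 * a + m 1 1 * b), mem_ker.2 ⟨_, _, rfl⟩⟩, (el_conj m 0 0 a b).symm, ?_⟩
    rw [tr2_el, tr2_el]
    have h1 : ((pr.comp (sc : Matrix.SpecialLinearGroup (Fin 2) F →* ↥(qdOver F)).range.subtype) ⟨sc m, ⟨m, rfl⟩⟩ : Matrix.SpecialLinearGroup (Fin 2) F) = m := pr_el m 0 0
    rw [h1]
    ext i
    fin_cases i <;> simp [Matrix.mulVec, dotProduct, Fin.sum_univ_two]

theorem s2762 {F : Type*} [Field F] [Fintype F] {p : ℕ} [Fact p.Prime] [CharP F p] : (∀ M : ↥(Cfsg.qdOver F), M ∈ Cfsg.pCore p ↥(Cfsg.qdOver F) ↔ ((M : Matrix.SpecialLinearGroup (Fin 3) F) : Matrix (Fin 3) (Fin 3) F) 0 0 = 1 ∧ ((M : Matrix.SpecialLinearGroup (Fin 3) F) : Matrix (Fin 3) (Fin 3) F) 0 1 = 0 ∧ ((M : Matrix.SpecialLinearGroup (Fin 3) F) : Matrix (Fin 3) (Fin 3) F) 1 0 = 0 ∧ ((M : Matrix.SpecialLinearGroup (Fin 3) F) : Matrix (Fin 3) (Fin 3) F) 1 1 = 1) ∧ ∃ K : Subgroup ↥(Cfsg.qdOver F), (∀ M :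 ↥(Cfsg.qdOver F), M ∈ K ↔ ((M : Matrix.SpecialLinearGroup (Fin 3) F) : Matrix (Fin 3) (Fin 3) F) 0 2 = 0 ∧ ((M : Matrix.SpecialLinearGroup (Fin 3) F) : Matrix (Fin 3) (Fin 3) F) 1 2 = 0) ∧ K ⊓ Cfsg.pCore p ↥(Cfsg.qdOver F) = ⊥ ∧ K ⊔ Cfsg.pCore p ↥(Cfsg.qdOver F) = ⊤ ∧ Nonempty (↥K ≃* Matrix.SpecialLinearGroup (Fin 2) F) ∧ Cfsg.IsNaturalSL2Module F (Cfsg.pCore p ↥(Cfsg.qdOver F)) K := by
  rw [pCore_eq]
  refine ⟨fun M => mem_ker', (sc : Matrix.SpecialLinearGroup (Fin 2) F →* ↥(qdOver F)).range, ?_, ?_, ?_, ?_, natural⟩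
  · intro M
    constructor
    · rintro ⟨m, rfl⟩
      exact ⟨rfl, rfl⟩
    · rintro ⟨h1, h2⟩
      obtain ⟨m, u, v, rfl⟩ := el_surj M
      have h1' : u = 0 := h1
      have h2' : v = 0 := h2
      exact ⟨m, by rw [h1', h2']; rfl⟩
  · rw [eq_bot_iff]
    rintro _ ⟨⟨m, rfl⟩, h⟩
    have h1 : m = 1 := (pr_el m 0 0).symm.trans h
    rw [Subgroup.mem_bot, h1, map_one]
  · rw [eq_top_iff]
    intro M _
    obtain ⟨m, u, v, rfl⟩ := el_surj M
    have h1 : el m u v = el 1 u v * sc m := by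
      change _ = el 1 u v * el m 0 0
      rw [el_mul, one_mul, one00, one01, one10, one11]
      congr 1 <;> ring
    rw [h1]
    exact Subgroup.mul_mem _ (Subgroup.mem_sup_right (mem_ker.2 ⟨_, _, rfl⟩)) (Subgroup.mem_sup_left ⟨m, rfl⟩)
  · exact ⟨(MonoidHom.ofInjective sc_inj).symm⟩

end CfsgLib.KQd
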