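import Mathlib

/-! Small lemmas about known simple groups (seat helper10). -/

namespace CfsgLib.KS1

open Matrix

theorem orderOf_perm_dvd {n N : ℕ} (hN : ∀ k, 1 ≤ k → k ≤ n → k ∣ N) (σ : Equiv.Perm (Fin n)) : orderOf σ ∣ N := by
  classical
  rw [← Equiv.Perm.lcm_cycleType]
  refine Multiset.lcm_dvd.2 fun k hk => hN k ?_ ?_
  · exact Equiv.Perm.one_lt_of_mem_cycleType hk |>.le
  · have := Equiv.Perm.le_card_support_of_mem_cycleType hk
    refine this.trans ((Finset.card_le_univ _).trans ?_)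
    simp

theorem s2541 {F : Type*} [Field F] [Fintype F] (hF : Fintype.card F = 9) :
    ¬ Nonempty (Equiv.Perm (Fin 6) ≃* Matrix.ProjGenLinGroup (Fin 2) F) := by
  classical
  rintro ⟨e⟩
  obtain ⟨ζ, hζ⟩ := IsCyclic.exists_generator (α := Fˣ)
  have hcard : Fintype.card Fˣ = 8 := by rw [Fintype.card_units, hF]
  have hord : orderOf ζ = 8 := by
    rw [orderOf_eq_card_of_forall_mem_zpowers hζ, Nat.card_eq_fintype_card, hcard]
  let d : GL (Fin 2) F := Matrix.GeneralLinearGroup.mkOfDetNeZero (Matrix.diagonal ![(ζ : F), 1]) (by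
    rw [Matrix.det_diagonal]; simp)
  have hd : ∀ k : ℕ, ((d ^ k : GL (Fin 2) F) : Matrix (Fin 2) (Fin 2) F) = Matrix.diagonal ![(ζ : F) ^ k, 1] := by
    intro k
    have : ((d ^ k : GL (Fin 2) F) : Matrix (Fin 2) (Fin 2) F) = (Matrix.diagonal ![(ζ : F), 1]) ^ k := by
      simp [d, Matrix.GeneralLinearGroup.mkOfDetNeZero]
    rw [this, Matrix.diagonal_pow]
    congr 1
    ext i; fin_cases i <;> simp
  have h8 : orderOf (Matrix.ProjGenLinGroup.mk d) = 8 := by
    rw [← hord]
    apply Nat.dvd_antisymm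
    · apply orderOf_dvd_of_pow_eq_one
      rw [← map_pow, Matrix.ProjGenLinGroup.mk_eq_one, Matrix.GeneralLinearGroup.center_eq_range_scalar]
      refine ⟨1, ?_⟩
      rw [map_one]
      apply Units.ext
      rw [hd]
      have : (ζ : F) ^ orderOf ζ = 1 := by
        rw [← Units.val_pow_eq_pow_val, pow_orderOf_eq_one, Units.val_one]
      rw [this]
      ext i j; fin_cases i <;> fin_cases j <;> simp
    · apply orderOf_dvd_of_pow_eq_one
      have := pow_orderOf_eq_one (Matrix.ProjGenLinGroup.mk d)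
      rw [← map_pow, Matrix.ProjGenLinGroup.mk_eq_one, Matrix.GeneralLinearGroup.center_eq_range_scalar] at this
      obtain ⟨u, hu⟩ := this
      have h1 := congrArg (fun g : GL (Fin 2) F => (g : Matrix (Fin 2) (Fin 2) F)) hu
      simp only [hd] at h1
      have h00 := congrFun (congrFun h1 0) 0
      have h11 := congrFun (congrFun h1 1) 1
      simp at h00 h11
      apply Units.ext
      rw [Units.val_pow_eq_pow_val, ← h00, Units.val_one]
      simpa using h11
  have h60 : orderOf (e.symm (Matrix.ProjGenLinGroup.mk d)) ∣ 60 := orderOf_perm_dvd (by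
    intro k h1 h2; interval_cases k <;> decide) _
  rw [MulEquiv.orderOf_eq, h8] at h60
  revert h60; decide

theorem exists_max_order {X : Type*} [Group X] [Finite X] (x : X) : ∃ m, orderOf x ∣ m ∧ m ∈ {n : ℕ | n ∈ Set.range (orderOf : X → ℕ) ∧ ∀ m ∈ Set.range (orderOf : X → ℕ), n ∣ m → m = n} := by
  obtain ⟨y, hy1, hy2⟩ := Set.Finite.exists_maximalFor (fun y : X => orderOf y) {y : X | orderOf x ∣ orderOf y}
    (Set.toFinite _) ⟨x, dvd_refl _⟩
  refine ⟨orderOf y, hy1, ⟨y, rfl⟩, ?_⟩
  rintro m ⟨z, rfl⟩ hz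
  have := hy2 (show z ∈ {y : X | orderOf x ∣ orderOf y} from dvd_trans hy1 hz) (Nat.le_of_dvd (orderOf_pos z) hz)
  exact le_antisymm this (Nat.le_of_dvd (orderOf_pos z) hz)

theorem exists_order_of_dvd {X : Type*} [Group X] [Finite X] (x : X) (n : ℕ) (hn : n ∣ orderOf x) : ∃ y : X, orderOf y = n := by
  obtain ⟨c, hc⟩ := hn
  have hpos := orderOf_pos x
  have hc0 : c ≠ 0 := by
    rintro rfl
    rw [Nat.mul_zero] at hc
    omega
  refine ⟨x ^ c, ?_⟩
  rw [orderOf_pow_of_dvd hc0 ⟨n, by rw [hc, mul_comm]⟩, hc, Nat.mul_div_cancel _ (Nat.pos_of_ne_zero hc0)]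

/-- exercise: orders in powers -/
theorem s2514 {G H : Type*} [Group G] [Finite G] [Group H] [Finite H] (k : ℕ) (hk : 1 ≤ k)
    (hsub : {n : ℕ | n ∈ Set.range (orderOf : H → ℕ) ∧ ∀ m ∈ Set.range (orderOf : H → ℕ), n ∣ m → m = n} ⊆ {n : ℕ | n ∈ Set.range (orderOf : G → ℕ) ∧ ∀ m ∈ Set.range (orderOf : G → ℕ), n ∣ m → m = n})
    (hfew : ({n : ℕ | n ∈ Set.range (orderOf : G → ℕ) ∧ ∀ m ∈ Set.range (orderOf : G → ℕ), n ∣ m → m = n} \ {n : ℕ | n ∈ Set.range (orderOf : H → ℕ) ∧ ∀ m ∈ Set.range (orderOf : H → ℕ), n ∣ m → m = n}).ncard < k) :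
    Set.range (orderOf : (Fin k → G) → ℕ) = Set.range (orderOf : (Fin (k - 1) → G) × H → ℕ) := by
  classical
  obtain ⟨k, rfl⟩ : ∃ j, k = j + 1 := ⟨k - 1, by omega⟩
  change Set.range (orderOf : (Fin (k + 1) → G) → ℕ) = Set.range (orderOf : (Fin k → G) × H → ℕ)
  ext n
  constructor
  · rintro ⟨x, rfl⟩
    -- choose maximal orders
    choose m hm1 hm2 using fun i => exists_max_order (x i)
    by_cases hcase : ∃ i, m i ∈ {n : ℕ | n ∈ Set.range (orderOf : H → ℕ) ∧ ∀ m ∈ Set.range (orderOf : H → ℕ), n ∣ m → m = n}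
    · obtain ⟨i, hi⟩ := hcase
      obtain ⟨h0, hh0⟩ := hi.1
      obtain ⟨h, hh⟩ := exists_order_of_dvd h0 (orderOf (x i)) (by rw [hh0]; exact hm1 i)
      refine ⟨(fun j => x (i.succAbove j), h), ?_⟩
      rw [Prod.orderOf]
      simp only [Pi.orderOf, hh]
      apply Nat.dvd_antisymm
      · apply Nat.lcm_dvd
        · exact Finset.lcm_dvd fun j _ => Finset.dvd_lcm (f := fun i => orderOf (x i)) (Finset.mem_univ (i.succAbove j))
        · exact Finset.dvd_lcm (f := fun i => orderOf (x i)) (Finset.mem_univ i)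
      · refine Finset.lcm_dvd fun j _ => ?_
        rcases eq_or_ne j i with rfl | hj
        · exact Nat.dvd_lcm_right _ _
        · obtain ⟨l, rfl⟩ := Fin.exists_succAbove_eq hj
          exact dvd_trans (Finset.dvd_lcm (f := fun j => orderOf (x (i.succAbove j))) (Finset.mem_univ l)) (Nat.dvd_lcm_left _ _)
    · push Not at hcase
      -- pigeonhole
      set D := {n : ℕ | n ∈ Set.range (orderOf : G → ℕ) ∧ ∀ m ∈ Set.range (orderOf : G → ℕ), n ∣ m → m = n} \ {n : ℕ | n ∈ Set.range (orderOf : H → ℕ) ∧ ∀ m ∈ Set.range (orderOf : H → ℕ), n ∣ m → m = n} with hD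
      have hDfin : D.Finite := by
        refine Set.Finite.subset (Set.finite_range (orderOf : G → ℕ)) ?_
        rintro n ⟨⟨h, _⟩, _⟩
        exact h
      obtain ⟨i, j, hij, hmij⟩ : ∃ i j, i ≠ j ∧ m i = m j := by
        by_contra hcon
        push Not at hcon
        have hinj : Function.Injective m := fun i j h => by
          by_contra hne
          exact hcon i j hne h
        have : (Set.range m).ncard ≤ D.ncard := Set.ncard_le_ncard (by
          rintro _ ⟨i, rfl⟩
          exact ⟨hm2 i, hcase i⟩) hDfin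
        rw [Set.ncard_range_of_injective hinj] at this
        simp at this
        omega
      -- lcm of orders at i and j is an order
      obtain ⟨g0, hg0⟩ := (hm2 i).1
      obtain ⟨g, hg⟩ := exists_order_of_dvd g0 (Nat.lcm (orderOf (x i)) (orderOf (x j))) (by
        rw [hg0]; exact Nat.lcm_dvd (hm1 i) (hmij ▸ hm1 j))
      obtain ⟨l, rfl⟩ := Fin.exists_succAbove_eq hij
      refine ⟨(fun t => if t = l then g else x (j.succAbove t), 1), ?_⟩
      rw [Prod.orderOf]
      simp only [Pi.orderOf, orderOf_one, Nat.lcm_one_right]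
      apply Nat.dvd_antisymm
      · refine Finset.lcm_dvd fun t _ => ?_
        by_cases ht : t = l
        · rw [if_pos ht, hg]
          exact Nat.lcm_dvd (Finset.dvd_lcm (f := fun i => orderOf (x i)) (Finset.mem_univ _))
            (Finset.dvd_lcm (f := fun i => orderOf (x i)) (Finset.mem_univ _))
        · rw [if_neg ht]
          exact Finset.dvd_lcm (f := fun i => orderOf (x i)) (Finset.mem_univ _)
      · refine Finset.lcm_dvd fun t _ => ?_
        have hlg : orderOf (if l = l then g else x (j.succAbove l)) ∣ Finset.univ.lcm (fun t => orderOf (if t = l then g else x (j.succAbove t))) :=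
          Finset.dvd_lcm (f := fun t => orderOf (if t = l then g else x (j.succAbove t))) (Finset.mem_univ l)
        rw [if_pos rfl, hg] at hlg
        rcases eq_or_ne t j with rfl | ht
        · exact dvd_trans (Nat.dvd_lcm_right _ _) hlg
        · obtain ⟨s, rfl⟩ := Fin.exists_succAbove_eq ht
          by_cases hs : s = l
          · subst hs
            exact dvd_trans (Nat.dvd_lcm_left _ _) hlg
          · have := Finset.dvd_lcm (f := fun t => orderOf (if t = l then g else x (j.succAbove t))) (Finset.mem_univ s)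
            simp only [if_neg hs] at this
            exact this
  · rintro ⟨⟨x, h⟩, rfl⟩
    obtain ⟨m, hm1, hm2⟩ := exists_max_order h
    obtain ⟨g0, hg0⟩ := (hsub hm2).1
    obtain ⟨g, hg⟩ := exists_order_of_dvd g0 (orderOf h) (by rw [hg0]; exact hm1)
    refine ⟨Fin.cons g x, ?_⟩
    rw [Prod.orderOf]
    simp only [Pi.orderOf]
    apply Nat.dvd_antisymm
    · refine Finset.lcm_dvd fun t _ => ?_
      refine Fin.cases ?_ (fun s => ?_) t
      · simp only [Fin.cons_zero, hg]; exact Nat.dvd_lcm_right _ _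
      · simp only [Fin.cons_succ]
        exact dvd_trans (Finset.dvd_lcm (f := fun j => orderOf (x j)) (Finset.mem_univ s)) (Nat.dvd_lcm_left _ _)
    · apply Nat.lcm_dvd
      · refine Finset.lcm_dvd fun t _ => ?_
        have := Finset.dvd_lcm (f := fun i => orderOf ((Fin.cons g x : Fin (k+1) → G) i)) (Finset.mem_univ t.succ)
        simpa using this
      · have := Finset.dvd_lcm (f := fun i => orderOf ((Fin.cons g x : Fin (k+1) → G) i)) (Finset.mem_univ 0)
        simpa [hg] using this

end CfsgLib.KS1
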