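import Mathlib

/-! Small lemmas about known simple groups, part 2 (seat helper10). -/

namespace CfsgLib.KS2

theorem s2516 {F : Type*} [Field F] (p : ℕ) [Fact p.Prime] [CharP F p] {V : Type*} [AddCommGroup V] [Module F V] [FiniteDimensional F V] [Nontrivial V]
    {G : Type*} [Group G] [Finite G] (ρ : Representation F G V) (g : G) :
    (∃ x : Multiplicative V ⋊[(MulAutMultiplicative V).symm.toMonoidHom.comp
        ((DistribMulAction.toAddAut ((V →ₗ[F] V)ˣ) V).comp ρ.asGroupHom)] G,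
        x.right = g ∧ orderOf x = p * orderOf g) ↔
      ¬ (minpoly F (ρ g) ∣ ∑ i ∈ Finset.range (orderOf g), (Polynomial.X : Polynomial F) ^ i) := by
  classical
  set θ := (MulAutMultiplicative V).symm.toMonoidHom.comp
        ((DistribMulAction.toAddAut ((V →ₗ[F] V)ˣ) V).comp ρ.asGroupHom) with hθ
  have hact : ∀ (h : G) (v : V), θ h (Multiplicative.ofAdd v) = Multiplicative.ofAdd (ρ h v) := by
    intro h v; rfl
  have hpow : ∀ (v : V) (n : ℕ), (⟨Multiplicative.ofAdd v, g⟩ : Multiplicative V ⋊[θ] G) ^ n = ⟨Multiplicative.ofAdd (∑ i ∈ Finset.range n, (ρ g ^ i) v), g ^ n⟩ := by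
    intro v n
    induction n with
    | zero => simp
    | succ n ih =>
      rw [pow_succ, ih, SemidirectProduct.mul_def]
      ext
      · simp only
        rw [hact, map_pow, Finset.sum_range_succ, ofAdd_add]
      · simp only [pow_succ]
  have hk : 0 < orderOf g := orderOf_pos g
  have hp : p.Prime := Fact.out
  set S : V →ₗ[F] V := ∑ i ∈ Finset.range (orderOf g), ρ g ^ i with hS
  have hSv : ∀ v : V, (⟨Multiplicative.ofAdd v, g⟩ : Multiplicative V ⋊[θ] G) ^ (orderOf g) = ⟨Multiplicative.ofAdd (S v), 1⟩ := by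
    intro v
    rw [hpow, pow_orderOf_eq_one, hS, LinearMap.sum_apply]
  have key : ∀ v : V, orderOf (⟨Multiplicative.ofAdd v, g⟩ : Multiplicative V ⋊[θ] G) = p * orderOf g ↔ S v ≠ 0 := by
    intro v
    constructor
    · intro h h0
      have h1 : (⟨Multiplicative.ofAdd v, g⟩ : Multiplicative V ⋊[θ] G) ^ (orderOf g) = 1 := by
        rw [hSv, h0]; rfl
      have h2 := orderOf_dvd_of_pow_eq_one h1
      rw [h] at h2
      have h3 := Nat.le_of_dvd hk h2
      have := hp.two_le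
      nlinarith
    · intro h0
      have h1 : ((⟨Multiplicative.ofAdd v, g⟩ : Multiplicative V ⋊[θ] G) ^ (orderOf g)) ^ p = 1 := by
        rw [hSv]
        have : (⟨Multiplicative.ofAdd (S v), 1⟩ : Multiplicative V ⋊[θ] G) = SemidirectProduct.inl (Multiplicative.ofAdd (S v)) := rfl
        rw [this, ← map_pow]
        have h2 : (Multiplicative.ofAdd (S v)) ^ p = 1 := by
          rw [← ofAdd_nsmul]
          have : p • S v = 0 := by
            rw [← Nat.cast_smul_eq_nsmul F, CharP.cast_eq_zero, zero_smul]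
          rw [this]; rfl
        rw [h2, map_one]
      rw [← pow_mul] at h1
      have h2 := orderOf_dvd_of_pow_eq_one h1
      have h3 : orderOf g ∣ orderOf (⟨Multiplicative.ofAdd v, g⟩ : Multiplicative V ⋊[θ] G) := by
        have := orderOf_map_dvd (SemidirectProduct.rightHom : Multiplicative V ⋊[θ] G →* G) (⟨Multiplicative.ofAdd v, g⟩ : Multiplicative V ⋊[θ] G)
        exact this
      obtain ⟨c, hc⟩ := h3
      rw [hc] at h2
      have h4 : c ∣ p := Nat.dvd_of_mul_dvd_mul_left hk h2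
      rcases (Nat.dvd_prime hp).1 h4 with rfl | rfl
      · exfalso
        rw [mul_one] at hc
        have := pow_orderOf_eq_one (⟨Multiplicative.ofAdd v, g⟩ : Multiplicative V ⋊[θ] G)
        rw [hc, hSv] at this
        have h5 := congrArg SemidirectProduct.left this
        exact h0 (by simpa using h5)
      · rw [hc, mul_comm]
  rw [minpoly.dvd_iff]
  have haeval : (Polynomial.aeval (ρ g)) (∑ i ∈ Finset.range (orderOf g), (Polynomial.X : Polynomial F) ^ i) = S := by
    simp [hS]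
  rw [haeval]
  constructor
  · rintro ⟨⟨v, g'⟩, rfl, hx⟩ h0
    refine (key v.toAdd).1 hx ?_
    rw [h0]; rfl
  · intro h0
    obtain ⟨v, hv⟩ : ∃ v, S v ≠ 0 := by
      by_contra hcon
      push Not at hcon
      exact h0 (LinearMap.ext hcon)
    exact ⟨⟨Multiplicative.ofAdd v, g⟩, rfl, (key v).2 hv⟩

open Matrix in
theorem s2552 {F : Type*} [Field F] [Fintype F] (n : ℕ) (hn : 1 ≤ n) (U₁ U₂ : Submodule F (Fin n → F)) (h : Module.finrank F U₁ = Module.finrank F U₂) : ∃ g : Matrix.SpecialLinearGroup (Fin n) F, U₁.map ((Matrix.SpecialLinearGroup.toLin' g : (Fin n → F) ≃ₗ[F] (Fin n → F)) : (Fin n → F) →ₗ[F] (Fin n → F)) = U₂ := by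
  classical
  -- a linear equivalence carrying U₁ to U₂
  obtain ⟨W₁, hW₁⟩ := Submodule.exists_isCompl U₁
  obtain ⟨W₂, hW₂⟩ := Submodule.exists_isCompl U₂
  have hW : Module.finrank F W₁ = Module.finrank F W₂ := by
    have h1 := Submodule.finrank_add_eq_of_isCompl hW₁
    have h2 := Submodule.finrank_add_eq_of_isCompl hW₂
    omega
  let eU : U₁ ≃ₗ[F] U₂ := LinearEquiv.ofFinrankEq _ _ h
  let eW : W₁ ≃ₗ[F] W₂ := LinearEquiv.ofFinrankEq _ _ hW
  let e : (Fin n → F) ≃ₗ[F] (Fin n → F) :=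
    (Submodule.prodEquivOfIsCompl U₁ W₁ hW₁).symm.trans ((eU.prodCongr eW).trans (Submodule.prodEquivOfIsCompl U₂ W₂ hW₂))
  have he : ∀ u : U₁, e (u : Fin n → F) = (eU u : Fin n → F) := by
    intro u
    simp [e]
  have hmap : U₁.map (e : (Fin n → F) →ₗ[F] (Fin n → F)) ≤ U₂ := by
    rintro _ ⟨u, hu, rfl⟩
    have := he ⟨u, hu⟩
    simp only [LinearEquiv.coe_coe]
    rw [this]; exact (eU ⟨u, hu⟩).2
  -- a dilation fixing U₂
  obtain ⟨v, hv0, hv⟩ : ∃ v : Fin n → F, v ≠ 0 ∧ (U₂ = ⊥ ∨ v ∈ U₂) := by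
    by_cases hU : U₂ = ⊥
    · haveI : Nonempty (Fin n) := ⟨⟨0, hn⟩⟩
      obtain ⟨v, hv⟩ := exists_ne (0 : Fin n → F)
      exact ⟨v, hv, Or.inl hU⟩
    · obtain ⟨v, hv, hv0⟩ := Submodule.exists_mem_ne_zero_of_ne_bot hU
      exact ⟨v, hv0, Or.inr hv⟩
  obtain ⟨i, hi⟩ : ∃ i, v i ≠ 0 := by
    by_contra hcon
    push Not at hcon
    exact hv0 (funext hcon)
  let δ : F := (LinearMap.det (e : (Fin n → F) →ₗ[F] (Fin n → F)))⁻¹
  -- matrix  1 + v w^T
  let w : Fin n → F := Pi.single i ((δ - 1) * (v i)⁻¹)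
  let D : Matrix (Fin n) (Fin n) F := 1 + Matrix.vecMulVec v w
  have hD : D.det = δ := by
    have : D.det = 1 + w ⬝ᵥ v := by
      simp only [D]
      rw [Matrix.vecMulVec_eq (Fin 1)]
      rw [Matrix.det_one_add_replicateCol_mul_replicateRow]
    rw [this]
    simp only [w, single_dotProduct]
    field_simp
    ring
  have hDv : ∀ x ∈ U₂, D.mulVec x ∈ U₂ := by
    intro x hx
    have : D.mulVec x = x + (w ⬝ᵥ x) • v := by
      simp only [D, Matrix.add_mulVec, Matrix.one_mulVec]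
      congr 1
      ext j
      simp [Matrix.mulVec, Matrix.vecMulVec_apply, dotProduct, Finset.mul_sum, Finset.sum_mul, mul_assoc, mul_comm, mul_left_comm]
    rw [this]
    rcases hv with hv | hv
    · rw [hv] at hx ⊢
      rw [Submodule.mem_bot] at hx
      subst hx
      simp
    · exact U₂.add_mem hx (U₂.smul_mem _ hv)
  let M : Matrix (Fin n) (Fin n) F := D * LinearMap.toMatrix' (e : (Fin n → F) →ₗ[F] (Fin n → F))
  have hM : M.det = 1 := by
    simp only [M, Matrix.det_mul, hD, LinearMap.det_toMatrix']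
    have : LinearMap.det (e : (Fin n → F) →ₗ[F] (Fin n → F)) ≠ 0 := (LinearEquiv.isUnit_det' e).ne_zero
    exact inv_mul_cancel₀ this
  obtain ⟨g, hg⟩ : ∃ g : Matrix.SpecialLinearGroup (Fin n) F, (g : Matrix (Fin n) (Fin n) F) = M := ⟨⟨M, hM⟩, rfl⟩
  refine ⟨g, ?_⟩
  apply Submodule.eq_of_le_of_finrank_eq
  · rintro _ ⟨u, hu, rfl⟩
    have h1 : e u ∈ U₂ := hmap ⟨u, hu, rfl⟩
    have h2 := hDv _ h1
    have h3 : ((Matrix.SpecialLinearGroup.toLin' g : (Fin n → F) ≃ₗ[F] (Fin n → F)) : (Fin n → F) →ₗ[F] (Fin n → F)) u = D.mulVec (e u) := by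
      rw [LinearEquiv.coe_coe, Matrix.SpecialLinearGroup.toLin'_apply, Matrix.toLin'_apply, hg]
      simp only [M]
      rw [← Matrix.mulVec_mulVec]
      congr 1
      rw [LinearMap.toMatrix'_mulVec]
      rfl
    rw [h3]; exact h2
  · rw [LinearEquiv.finrank_map_eq]
    exact h

end CfsgLib.KS2
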