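import Mathlib
import Cfsg.Agent.EqBase
import Cfsg.Agent.LibKulBH12

/-! Counting subgroups of prime power order modulo `p ^ 2`: reduction to the Sylow subgroup. -/

set_option autoImplicit false
set_option linter.style.haveILetI false
set_option linter.unusedSectionVars false

universe u

namespace CfsgLib.KulH12

open scoped Pointwise

section
variable {G : Type u} [Group G] [Finite G]

/-- conjugation action -/
@[reducible] def cact (G : Type u) [Group G] : MulAction G (Subgroup G) :=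
  MulAction.compHom (Subgroup G) (MulAut.conj : G →* MulAut G)

attribute [local instance] cact

theorem cdef (g : G) (H : Subgroup G) : g • H = H.map (MulAut.conj g).toMonoidHom := rfl

theorem ccard (g : G) (H : Subgroup G) : Nat.card (g • H : Subgroup G) = Nat.card H := by
  rw [cdef]
  exact Subgroup.card_map_of_injective (MulAut.conj g).injective

theorem cmem (g : G) (H : Subgroup G) (x : G) : x ∈ g • H ↔ g⁻¹ * x * g ∈ H := by
  rw [cdef]
  constructor
  · rintro ⟨y, hy, rfl⟩
    change g⁻¹ * (g * y * g⁻¹) * g ∈ H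
    have : g⁻¹ * (g * y * g⁻¹) * g = y := by group
    rwa [this]
  · intro h
    exact ⟨_, h, by change g * (g⁻¹ * x * g) * g⁻¹ = x; group⟩

theorem cnorm (g : G) (H : Subgroup G) : g • H = H ↔ g ∈ Subgroup.normalizer (H : Set G) :=
  Subgroup.mem_normalizer_iff_map_conj_eq.symm

theorem cle (g : G) {H K : Subgroup G} : g • H ≤ g • K ↔ H ≤ K := by
  constructor
  · intro h x hx
    have h1 : g * x * g⁻¹ ∈ g • H := by rw [cmem]; convert hx using 1; group
    have h2 := h h1
    rw [cmem] at h2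
    convert h2 using 1; group
  · intro h x hx
    rw [cmem] at hx ⊢
    exact h hx

theorem csup (g : G) (H K : Subgroup G) : g • (H ⊔ K) = g • H ⊔ g • K := by
  rw [cdef, cdef, cdef, Subgroup.map_sup]

theorem cself {g : G} {P : Subgroup G} (h : g ∈ P) : g • P = P := by
  rw [cnorm]; exact Subgroup.le_normalizer h

theorem card_mul_rel {H K : Subgroup G} (h : H ≤ K) : Nat.card H * H.relIndex K = Nat.card K := by
  have h1 := Subgroup.relIndex_mul_relIndex (⊥ : Subgroup G) H K bot_le h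
  rwa [Subgroup.relIndex_bot_left, Subgroup.relIndex_bot_left] at h1

variable {p : ℕ} [hp : Fact p.Prime] (P : Sylow p G)

/-- normaliser in `P` -/
def NP (H : Subgroup G) : Subgroup G := Subgroup.normalizer (H : Set G) ⊓ P

theorem mem_NP (H : Subgroup G) (x : G) : x ∈ NP P H ↔ x • H = H ∧ x ∈ P := by
  rw [cnorm]; exact Iff.rfl

theorem smul_NP {g : G} (hg : g ∈ P) (H : Subgroup G) : NP P (g • H) = g • NP P H := by
  ext x
  rw [cmem, mem_NP, mem_NP]
  have e1 : x • g • H = g • H ↔ (g⁻¹ * x * g) • H = H := by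
    rw [mul_smul, mul_smul, inv_smul_eq_iff]
  rw [e1]
  apply and_congr_right
  intro _
  constructor
  · intro h
    exact P.mul_mem (P.mul_mem (P.inv_mem hg) h) hg
  · intro h
    have := P.mul_mem (P.mul_mem hg h) (P.inv_mem hg)
    have e : g * (g⁻¹ * x * g) * g⁻¹ = x := by group
    rwa [e] at this

/-- a `p`-subgroup normalised by `P` lies in `P` -/
theorem le_of_norm {K : Subgroup G} (hK : IsPGroup p K)
    (h : (P : Subgroup G) ≤ Subgroup.normalizer (K : Set G)) : K ≤ P := by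
  have h1 : IsPGroup p ((P : Subgroup G) ⊔ K : Subgroup G) := IsPGroup.to_sup_of_normal_right' P.2 hK h
  have h2 : (P : Subgroup G) ⊔ K = P := P.3 h1 le_sup_left
  exact sup_eq_left.mp h2

/-- the fibres -/
noncomputable def ff (n : ℕ) (K : Subgroup G) : ℕ :=
  Nat.card {H : {H : Subgroup G // Nat.card H = n ∧ ¬ H ≤ P} // H.1 ⊔ NP P H.1 = K}

theorem ff_inv (n : ℕ) (K : Subgroup G) {g : G} (hg : g ∈ P) : ff P n (g • K) = ff P n K := by
  have hkey : ∀ (g : G) (_ : g ∈ P) (K H : Subgroup G), (Nat.card H = n ∧ ¬ H ≤ P) → H ⊔ NP P H = K →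
      ((Nat.card (g • H : Subgroup G) = n ∧ ¬ g • H ≤ P) ∧ g • H ⊔ NP P (g • H) = g • K) := by
    intro g hg K H h1 h2
    refine ⟨⟨by rw [ccard]; exact h1.1, fun h => h1.2 ?_⟩, ?_⟩
    · rw [← cself hg] at h
      exact (cle g).mp h
    · rw [smul_NP P hg, ← csup, h2]
  refine Nat.card_congr ⟨fun H => ⟨⟨g⁻¹ • H.1.1, ?_⟩, ?_⟩, fun H => ⟨⟨g • H.1.1, ?_⟩, ?_⟩,
    fun H => ?_, fun H => ?_⟩
  · exact (hkey g⁻¹ (P.inv_mem hg) _ _ H.1.2 H.2).1
  · have := (hkey g⁻¹ (P.inv_mem hg) _ _ H.1.2 H.2).2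
    rwa [inv_smul_smul] at this
  · exact (hkey g hg _ _ H.1.2 H.2).1
  · exact (hkey g hg _ _ H.1.2 H.2).2
  · apply Subtype.ext; apply Subtype.ext
    exact smul_inv_smul g H.1.1
  · apply Subtype.ext; apply Subtype.ext
    exact inv_smul_smul g H.1.1

theorem count_le {a : ℕ} (K : Subgroup G) : Nat.card {H : Subgroup G // Nat.card H = a ∧ H ≤ K} =
    nn K a := by
  refine Nat.card_congr ⟨fun H => ⟨H.1.subgroupOf K, ?_⟩, fun H => ⟨H.1.map K.subtype, ?_, ?_⟩,
    fun H => ?_, fun H => ?_⟩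
  · rw [Nat.card_congr (Subgroup.subgroupOfEquivOfLe H.2.2).toEquiv, H.2.1]
  · rw [Subgroup.card_map_of_injective K.subtype_injective, H.2]
  · exact Subgroup.map_subtype_le _
  · apply Subtype.ext
    exact Subgroup.map_subgroupOf_eq_of_le H.2.2
  · apply Subtype.ext
    exact Subgroup.comap_map_eq_self_of_injective K.subtype_injective _

/-- the crucial divisibility -/
theorem dvd_ff (a : ℕ) (hpa : p ^ (a + 1) ∣ Nat.card P) (K : Subgroup G)
    (hidx : (NP P K).relIndex P = p) : p ∣ ff P (p ^ a) K := by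
  obtain ⟨M, hM⟩ : ∃ M, M = NP P K := ⟨_, rfl⟩
  rw [← hM] at hidx
  have hMP : M ≤ P := by rw [hM]; exact inf_le_right
  have hMp : IsPGroup p M := P.2.to_le hMP
  have hMcard : Nat.card M * p = Nat.card P := by
    have := card_mul_rel hMP
    rwa [hidx] at this
  have hMdvd : p ^ a ∣ Nat.card M := by
    rw [← hMcard, pow_succ] at hpa
    exact Nat.dvd_of_mul_dvd_mul_right hp.out.pos hpa
  -- the set and its fixed points
  let T : Set (Subgroup G) := {H | (Nat.card H = p ^ a ∧ ¬ H ≤ P) ∧ H ⊔ NP P H = K}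
  have hT : Nat.card T = ff P (p ^ a) K :=
    Nat.card_congr ⟨fun H => ⟨⟨H.1, H.2.1⟩, H.2.2⟩, fun H => ⟨H.1.1, H.1.2, H.2⟩,
      fun H => rfl, fun H => rfl⟩
  have hT1 := CfsgLib.FgCnt.mod_fixed (Γ := M) hMp T (by
    rintro ⟨g, hg⟩ H ⟨h1, h2⟩
    have hgP : g ∈ P := hMP hg
    have hgK : g • K = K := by
      rw [hM] at hg; exact ((mem_NP P K g).mp hg).1
    refine ⟨⟨?_, fun h => h1.2 ?_⟩, ?_⟩
    · change Nat.card (g • H : Subgroup G) = _
      rw [ccard]; exact h1.1
    · change g • H ≤ P at h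
      rw [← cself (P := (P : Subgroup G)) hgP] at h
      exact (cle g).mp h
    · change g • H ⊔ NP P (g • H) = K
      rw [smul_NP P hgP, ← csup, h2, hgK])
  rw [hT] at hT1
  by_cases hne : ∃ H, H ∈ T
  swap
  · have : IsEmpty T := ⟨fun H => hne ⟨H.1, H.2⟩⟩
    rw [← hT, Nat.card_of_isEmpty]
    exact dvd_zero _
  have hKp : IsPGroup p K := by
    obtain ⟨H, ⟨h1, h2⟩, h3⟩ := hne
    rw [← h3]
    have := IsPGroup.to_sup_of_normal_right' (P.2.to_le (inf_le_right : NP P H ≤ P))
      (IsPGroup.of_card h1) (inf_le_left : NP P H ≤ _)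
    rwa [sup_comm] at this
  have hKcard : Nat.card K ≤ Nat.card P := by
    obtain ⟨Q, hQ⟩ := hKp.exists_le_sylow
    rw [Nat.card_congr (P.equiv Q).toEquiv]
    exact Nat.le_of_dvd Nat.card_pos (Subgroup.card_dvd_of_le hQ)
  by_cases hMK : M ≤ K
  · -- compare with the set S
    let S : Set (Subgroup G) := {H | (Nat.card H = p ^ a ∧ H ≤ K) ∧ ¬ H ≤ M}
    have hS1 := CfsgLib.FgCnt.mod_fixed (Γ := M) hMp S (by
      rintro ⟨g, hg⟩ H ⟨⟨h1, h2⟩, h3⟩
      refine ⟨⟨?_, ?_⟩, fun h => h3 ?_⟩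
      · change Nat.card (g • H : Subgroup G) = _
        rw [ccard]; exact h1
      · change g • H ≤ K
        rw [← cself (P := K) (hMK hg)]
        exact (cle g).mpr h2
      · change g • H ≤ M at h
        rw [← cself (P := M) hg] at h
        exact (cle g).mp h)
    have hfix : Nat.card {H : Subgroup G // H ∈ T ∧ ∀ g : M, g • H = H} =
        Nat.card {H : Subgroup G // H ∈ S ∧ ∀ g : M, g • H = H} := by
      apply Nat.card_congr
      apply Equiv.subtypeEquivRight
      intro H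
      constructor
      · rintro ⟨⟨⟨h1, h2⟩, h3⟩, h4⟩
        exact ⟨⟨⟨h1, by rw [← h3]; exact le_sup_left⟩, fun h => h2 (h.trans hMP)⟩, h4⟩
      · rintro ⟨⟨⟨h1, h2⟩, h3⟩, h4⟩
        have hMN : M ≤ NP P H := fun x hx => (mem_NP P H x).mpr ⟨h4 ⟨x, hx⟩, hMP hx⟩
        have hKP : K ⊓ P ≤ M := by
          rw [hM]
          exact fun x hx => (mem_NP P K x).mpr ⟨cself hx.1, hx.2⟩
        have hHP : ¬ H ≤ P := fun h => h3 ((le_inf h2 h).trans hKP)
        have hHp : IsPGroup p H := IsPGroup.of_card h1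
        have hNPM : NP P H = M := by
          have h5 := Subgroup.relIndex_mul_relIndex M (NP P H) P hMN inf_le_right
          rw [hidx] at h5
          rcases (Nat.dvd_prime hp.out).mp (Dvd.intro_left _ h5) with h6 | h6
          · exfalso
            rw [Subgroup.relIndex_eq_one] at h6
            exact hHP (le_of_norm P hHp (h6.trans inf_le_left))
          · rw [h6] at h5
            have h7 : M.relIndex (NP P H) = 1 := by
              have := hp.out.pos
              nlinarith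
            exact le_antisymm (Subgroup.relIndex_eq_one.mp h7) hMN
        refine ⟨⟨⟨h1, hHP⟩, ?_⟩, h4⟩
        rw [hNPM]
        have h8 : H ⊔ M ≤ K := sup_le h2 hMK
        apply Subgroup.eq_of_le_of_card_ge h8
        obtain ⟨j, hj⟩ := IsPGroup.iff_card.mp (hKp.to_le h8)
        have h9 := card_mul_rel (le_sup_right : M ≤ H ⊔ M)
        have h10 : M.relIndex (H ⊔ M) ∣ p ^ j := by rw [← hj, ← h9]; exact dvd_mul_left _ _
        obtain ⟨i, -, hi⟩ := (Nat.dvd_prime_pow hp.out).mp h10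
        have h11 : M.relIndex (H ⊔ M) ≠ 1 := fun h => h3 (by
          rw [Subgroup.relIndex_eq_one] at h
          exact le_sup_left.trans h)
        have h12 : p ≤ M.relIndex (H ⊔ M) := by
          rw [hi] at h11 ⊢
          exact Nat.le_self_pow (by rintro rfl; simp at h11) p
        calc Nat.card K ≤ Nat.card P := hKcard
          _ = Nat.card M * p := hMcard.symm
          _ ≤ Nat.card M * M.relIndex (H ⊔ M) := Nat.mul_le_mul_left _ h12
          _ = _ := h9
    have hS2 : nn K (p ^ a) = nn M (p ^ a) + Nat.card S := by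
      rw [← count_le K, card_split _ (fun H : Subgroup G => H ≤ M), ← count_le M]
      congr 1
      apply Nat.card_congr
      apply Equiv.subtypeEquivRight
      intro H
      exact ⟨fun h => ⟨h.1.1, h.2⟩, fun h => ⟨⟨h.1, h.2.trans hMK⟩, h.2⟩⟩
    have hS3 : nn K (p ^ a) ≡ 1 [MOD p] := CfsgLib.FgCount.frobenius p a hp.out
      (hMdvd.trans (Subgroup.card_dvd_of_le hMK))
    have hS4 : nn M (p ^ a) ≡ 1 [MOD p] := CfsgLib.FgCount.frobenius p a hp.out hMdvd
    have hS5 : Nat.card S ≡ 0 [MOD p] := by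
      have h6 : nn M (p ^ a) + Nat.card S ≡ nn M (p ^ a) + 0 [MOD p] := by
        rw [← hS2, add_zero]; exact hS3.trans hS4.symm
      exact Nat.ModEq.add_left_cancel' _ h6
    rw [hfix] at hT1
    exact (Nat.modEq_zero_iff_dvd).mp (hT1.trans (hS1.symm.trans hS5))
  · -- no fixed points
    have : IsEmpty {H : Subgroup G // H ∈ T ∧ ∀ g : M, g • H = H} := by
      constructor
      rintro ⟨H, ⟨⟨h1, h2⟩, h3⟩, h4⟩
      apply hMK
      intro x hx
      rw [← h3]
      exact (le_sup_right : NP P H ≤ _) ((mem_NP P H x).mpr ⟨h4 ⟨x, hx⟩, hMP hx⟩)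
    rw [Nat.card_of_isEmpty] at hT1
    exact (Nat.modEq_zero_iff_dvd).mp hT1

/-- only the subgroups of the Sylow subgroup matter -/
theorem dvd_out (a : ℕ) (hpa : p ^ (a + 1) ∣ Nat.card P) :
    p ^ 2 ∣ Nat.card {H : Subgroup G // Nat.card H = p ^ a ∧ ¬ H ≤ P} := by
  classical
  haveI : Fintype (Subgroup G) := Fintype.ofFinite _
  rw [card_fiber (fun H : {H : Subgroup G // Nat.card H = p ^ a ∧ ¬ H ≤ P} => H.1 ⊔ NP P H.1)]
  have h := CfsgLib.FgCount.dvd_sum_of_orbits (L := P) (X := Subgroup G)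
    (fun K => (ff P (p ^ a) K : ℤ)) (fun g K => by
      have := ff_inv P (p ^ a) K g.2
      exact congrArg Nat.cast this) ((p : ℤ) ^ 2) (fun K => ?_)
  · have h2 : ((p ^ 2 : ℕ) : ℤ) ∣ ((∑ K : Subgroup G, ff P (p ^ a) K : ℕ) : ℤ) := by
      push_cast
      exact h
    exact Int.natCast_dvd_natCast.mp h2
  · have h0 : ((p : ℤ) ^ 2) = ((p ^ 2 : ℕ) : ℤ) := by push_cast; rfl
    rw [h0, ← Nat.cast_mul, Int.natCast_dvd_natCast]
    -- orbit length
    have h1 : Nat.card (MulAction.orbit P K) = (NP P K).relIndex P := by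
      rw [← Nat.card_congr (MulAction.orbitEquivQuotientStabilizer P K).symm]
      change (MulAction.stabilizer P K).index = _
      congr 1
      ext x
      rw [Subgroup.mem_subgroupOf, mem_NP]
      exact ⟨fun h => ⟨h, x.2⟩, fun h => h.1⟩
    rw [h1]
    by_cases hne : ff P (p ^ a) K = 0
    · rw [hne, mul_zero]; exact dvd_zero _
    obtain ⟨⟨H, h2, h3⟩, h4⟩ := (Finite.card_pos_iff.mp (Nat.pos_of_ne_zero hne)).some
    have hKp : IsPGroup p K := by
      rw [← h4]
      have := IsPGroup.to_sup_of_normal_right' (P.2.to_le (inf_le_right : NP P H ≤ P))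
        (IsPGroup.of_card h2) (inf_le_left : NP P H ≤ _)
      rwa [sup_comm] at this
    obtain ⟨i, hi⟩ : ∃ i, (NP P K).relIndex P = p ^ i := IsPGroup.index P.2 _
    rcases i with _ | _ | i
    · exfalso
      rw [pow_zero, Subgroup.relIndex_eq_one] at hi
      apply h3
      have h5 := le_of_norm P hKp (hi.trans inf_le_left)
      rw [← h4] at h5
      exact le_sup_left.trans h5
    · rw [zero_add, pow_one] at hi
      obtain ⟨m, hm⟩ := dvd_ff P a hpa K hi
      rw [hi, hm]
      exact ⟨m, by ring⟩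
    · rw [hi]
      exact Dvd.dvd.mul_right (pow_dvd_pow p (by omega)) _

theorem nn_mod (a : ℕ) (hpa : p ^ (a + 1) ∣ Nat.card P) :
    nn G (p ^ a) ≡ nn P (p ^ a) [MOD p ^ 2] := by
  have h1 : nn G (p ^ a) = nn P (p ^ a) +
      Nat.card {H : Subgroup G // Nat.card H = p ^ a ∧ ¬ H ≤ P} := by
    change _ = nn ((P : Subgroup G)) (p ^ a) + _
    rw [← count_le (P : Subgroup G)]
    exact card_split _ _
  obtain ⟨m, hm⟩ := dvd_out P a hpa
  rw [h1, hm]
  simp [Nat.ModEq]

end

/-- Kulakoff and Hall -/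
theorem count {G : Type u} [Group G] [Finite G] (p a : ℕ) (hp : p.Prime)
    (hdvd : p ^ (a + 1) ∣ Nat.card G) :
    nn G (p ^ a) ≡ 1 [MOD p ^ 2] ∨ nn G (p ^ a) ≡ 1 + p [MOD p ^ 2] := by
  haveI : Fact p.Prime := ⟨hp⟩
  by_cases hp2 : p = 2
  · subst hp2
    have h1 : nn G (2 ^ a) ≡ 1 [MOD 2] := CfsgLib.FgCount.frobenius 2 a hp
      ((pow_dvd_pow 2 (by omega)).trans hdvd)
    have h2 : nn G (2 ^ a) % 2 = 1 := h1
    have h3 : nn G (2 ^ a) % 4 = 1 ∨ nn G (2 ^ a) % 4 = 3 := by omega
    rcases h3 with h3 | h3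
    · left; exact h3
    · right; exact h3
  · obtain ⟨P⟩ : Nonempty (Sylow p G) := inferInstance
    have hP : p ^ (a + 1) ∣ Nat.card P := by
      rw [P.card_eq_multiplicity]
      exact pow_dvd_pow p ((hp.pow_dvd_iff_le_factorization Nat.card_pos.ne').mp hdvd)
    have h1 := nn_mod P a hP
    obtain ⟨n, hn⟩ := IsPGroup.iff_card.mp P.2
    have han : a + 1 ≤ n := by
      rw [hn] at hP
      exact (Nat.pow_dvd_pow_iff_le_right hp.one_lt).mp hP
    by_cases hc : IsCyclic P
    · left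
      refine h1.trans ?_
      rw [nn_cyclic (by rw [hn]; exact pow_dvd_pow p (by omega))]
    · rcases a with _ | b
      · left
        rw [pow_zero, nn_one]
      · right
        exact h1.trans (kulakoff hp2 n P hn hc b (by omega))

end CfsgLib.KulH12
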