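import Mathlib
import Cfsg.Agent.EqBase
import Cfsg.Agent.LibCycNorm
import Cfsg.Agent.LibSolvNilp
import Cfsg.Agent.LibPCyc
import Cfsg.Agent.LibH2Max

/-! 2-groups without normal four-subgroups. -/

set_option autoImplicit false
set_option linter.style.haveILetI false

universe u

namespace CfsgLib.KulH12

theorem exists_four {G : Type u} [Group G] [Finite G] {m : ℕ} (hX : Nat.card G = 2 ^ m)
    (hnc : ¬ IsCyclic G) (hidx : (commutator G).index ≠ 4) :
    ∃ U : Subgroup G, U.Normal ∧ Nat.card U = 4 ∧ ∀ u ∈ U, u * u = 1 := by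
  have hG : IsPGroup 2 G := IsPGroup.of_card hX
  by_contra hno
  have hn : ∀ A : Subgroup G, A.Normal → IsMulCommutative A → IsCyclic A := by
    intro A hA hAc
    by_contra hAnc
    apply hno
    obtain ⟨B, hBA, hBc, hBe⟩ := CfsgLib.PCyc.exists_elem_of_not_isCyclic Nat.prime_two A
      (hG.to_subgroup A) hAc hAnc
    have hcomm : ∀ a ∈ A, ∀ b ∈ A, a * b = b * a := fun a ha b hb =>
      congrArg Subtype.val (hAc.is_comm.comm ⟨a, ha⟩ ⟨b, hb⟩)
    let W : Subgroup G :=
      { carrier := {a | a ∈ A ∧ a * a = 1}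
        one_mem' := ⟨A.one_mem, one_mul 1⟩
        mul_mem' := by
          rintro a b ⟨ha, ha2⟩ ⟨hb, hb2⟩
          refine ⟨A.mul_mem ha hb, ?_⟩
          calc a * b * (a * b) = a * (b * a) * b := by group
            _ = a * (a * b) * b := by rw [hcomm b hb a ha]
            _ = (a * a) * (b * b) := by group
            _ = 1 := by rw [ha2, hb2, one_mul]
        inv_mem' := by
          rintro a ⟨ha, ha2⟩
          refine ⟨A.inv_mem ha, ?_⟩
          rw [← mul_inv_rev, ha2, inv_one] }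
    have hWn : W.Normal := ⟨by
      rintro a ⟨ha, ha2⟩ g
      refine ⟨hA.conj_mem a ha g, ?_⟩
      calc g * a * g⁻¹ * (g * a * g⁻¹) = g * (a * a) * g⁻¹ := by group
        _ = 1 := by rw [ha2]; group⟩
    have hBW : B ≤ W := fun b hb => ⟨hBA hb, by rw [← pow_two]; exact hBe b hb⟩
    obtain ⟨M, hMn, hMW, hMc⟩ := CfsgLib.SolvNilp.exists_normal_card_eq Nat.prime_two _ G rfl hG W 2
      (by rw [← hBc]; exact Subgroup.card_dvd_of_le hBW)
    exact ⟨M, hMn, by rw [hMc]; norm_num, fun u hu => (hMW hu).2⟩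
  rcases CfsgLib.CycNorm.structure_thm hG hn with h | ⟨n, a, b, hn2, ha, hb, hind, h⟩
  · exact hnc h
  have h1 : (Subgroup.zpowers a).index = 2 := by
    rw [Subgroup.index_eq_two_iff]
    refine ⟨b⁻¹, fun g => ?_⟩
    by_cases hg : g ∈ Subgroup.zpowers a
    · right
      refine ⟨hg, fun h' => hb ?_⟩
      have h2 := (Subgroup.mul_mem_cancel_left _ hg).mp h'
      rwa [inv_mem_iff] at h2
    · left; exact ⟨hind g hg, hg⟩
  have hcard : Nat.card G = 2 ^ (n + 1) := by
    rw [← Subgroup.card_mul_index (Subgroup.zpowers a), h1, Nat.card_zpowers, ha, pow_succ]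
  -- the square of `a` is a commutator up to powers
  have hsq : a * a ∈ commutator G := by
    have hc : ∀ x y : G, x * y * x⁻¹ * y⁻¹ ∈ commutator G := fun x y => by
      rw [commutator_def]
      exact Subgroup.commutator_mem_commutator (Subgroup.mem_top x) (Subgroup.mem_top y)
    have hinv : b * a * b⁻¹ = a⁻¹ → a * a ∈ commutator G := by
      intro h2
      have h3 := (commutator G).inv_mem (hc b a)
      rw [h2] at h3
      rwa [mul_inv_rev, inv_inv] at h3
    rcases h with ⟨-, h2⟩ | ⟨-, -, h2⟩ | ⟨hn3, -, h2⟩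
    · exact hinv h2
    · exact hinv h2
    · have h3 := hc b a
      rw [h2] at h3
      obtain ⟨r, rfl⟩ : ∃ r, n = r + 3 := ⟨n - 3, by omega⟩
      have e1 : 2 ^ (r + 3 - 1) - 1 = 2 * (2 ^ (r + 1) - 1) + 1 := by
        have : 2 ^ (r + 3 - 1) = 2 * 2 ^ (r + 1) := by
          rw [show r + 3 - 1 = (r + 1) + 1 by omega, pow_succ]; ring
        have h5 : 1 ≤ 2 ^ (r + 1) := Nat.one_le_two_pow
        omega
      rw [e1, pow_succ, pow_mul, mul_inv_cancel_right] at h3
      -- `(a^2)^(odd)` generates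
      have hodd : ¬ 2 ∣ 2 ^ (r + 1) - 1 := by
        have h5 : 2 ^ (r + 1) = 2 * 2 ^ r := by rw [pow_succ]; ring
        have h6 : 1 ≤ 2 ^ r := Nat.one_le_two_pow
        omega
      have hco : (2 ^ (r + 1) - 1).Coprime (orderOf (a ^ 2)) := by
        apply Nat.Coprime.coprime_dvd_right (orderOf_pow_dvd 2 : orderOf (a ^ 2) ∣ orderOf a)
        rw [ha]
        apply Nat.Coprime.pow_right
        exact ((Nat.Prime.coprime_iff_not_dvd Nat.prime_two).mpr hodd).symm
      obtain ⟨j, hj⟩ := exists_pow_eq_self_of_coprime hco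
      rw [← pow_two, ← hj]
      exact (commutator G).pow_mem h3 _
  have hle : Subgroup.zpowers (a * a) ≤ commutator G := by rw [Subgroup.zpowers_le]; exact hsq
  have hoa : orderOf (a * a) = 2 ^ (n - 1) := by
    rw [← pow_two, orderOf_pow' a (by norm_num), ha]
    obtain ⟨r, rfl⟩ : ∃ r, n = r + 1 := ⟨n - 1, by omega⟩
    rw [Nat.gcd_eq_right (dvd_pow_self 2 (by omega)), pow_succ, Nat.mul_div_cancel _ (by norm_num),
      Nat.add_sub_cancel]
  have hi4 : (Subgroup.zpowers (a * a)).index = 4 := by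
    have h2 := (Subgroup.zpowers (a * a)).index_mul_card
    rw [Nat.card_zpowers, hoa, hcard] at h2
    obtain ⟨r, rfl⟩ : ∃ r, n = r + 1 := ⟨n - 1, by omega⟩
    rw [Nat.add_sub_cancel, show 2 ^ (r + 1 + 1) = 4 * 2 ^ r by ring] at h2
    exact Nat.eq_of_mul_eq_mul_right (by positivity) h2
  have hdvd : (commutator G).index ∣ 4 := by rw [← hi4]; exact Subgroup.index_dvd_of_le hle
  have hcyc : ∀ k, (commutator G).index = k → (k = 1 ∨ k = 2) → False := by
    intro k hk hk'
    apply hnc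
    apply CfsgLib.H2Max.cyclic_of_comm_quot hG
    rcases hk' with rfl | rfl
    · haveI : Subsingleton (G ⧸ commutator G) :=
        (Nat.card_eq_one_iff_unique.mp hk).1
      infer_instance
    · exact isCyclic_of_prime_card (p := 2) hk
  have h4 : (4 : ℕ) = 2 ^ 2 := by norm_num
  rw [h4, Nat.dvd_prime_pow Nat.prime_two] at hdvd
  obtain ⟨i, hi, hii⟩ := hdvd
  interval_cases i
  · exact hcyc _ hii (by norm_num)
  · exact hcyc _ hii (by norm_num)
  · exact hidx (by rw [hii]; norm_num)

end CfsgLib.KulH12
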