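import Mathlib
import Cfsg.Agent.EqBase
import Cfsg.Agent.LibFgCnt
import Cfsg.Agent.LibFgCount
import Cfsg.Agent.LibFgFrob
import Cfsg.Agent.LibKulBH12

/-! Involutions of 2-groups with a normal four-subgroup. -/

set_option autoImplicit false
set_option linter.style.haveILetI false
set_option linter.unusedSectionVars false

universe u

namespace CfsgLib.KulH12

section
variable {G : Type u} [Group G] [Finite G]

/-- a set stable under left multiplication by `U` -/
theorem dvd_of_stable (U : Subgroup G) (T : Set G) (hT : ∀ u ∈ U, ∀ x ∈ T, u * x ∈ T) :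
    Nat.card U ∣ Nat.card T := by
  classical
  haveI : Fintype G := Fintype.ofFinite G
  have hinv : ∀ u ∈ U, ∀ x, u * x ∈ T ↔ x ∈ T := fun u hu x =>
    ⟨fun h => by have := hT u⁻¹ (U.inv_mem hu) _ h; rwa [inv_mul_cancel_left] at this, hT u hu x⟩
  have h := CfsgLib.FgCount.dvd_sum_of_orbits (L := U) (X := G)
    (fun x => if x ∈ T then (1 : ℤ) else 0) (fun u x => by
      change (if (u : G) * x ∈ T then (1 : ℤ) else 0) = _
      simp only [hinv u u.2 x]) (Nat.card U : ℤ) (fun x => by
      have h1 : Nat.card (MulAction.orbit U x) = Nat.card U := by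
        refine (Nat.card_congr (Equiv.ofInjective (fun u : U => u • x) ?_)).symm
        intro u v huv
        exact Subtype.ext (mul_right_cancel (huv : (u : G) * x = v * x))
      rw [h1]
      exact dvd_mul_right _ _)
  have h2 : (∑ x : G, (if x ∈ T then (1 : ℤ) else 0)) = (Nat.card T : ℤ) := by
    rw [Finset.sum_boole, Nat.card_eq_fintype_card, Fintype.card_subtype]
  rw [h2] at h
  exact_mod_cast h

/-- solutions of `b² ∈ ⟨z⟩` -/
theorem four_dvd_B (B : Subgroup G) (z : G) (hzB : z ∈ B) (hz : ∀ g ∈ B, g * z = z * g)
    (hz1 : z ≠ 1) (hz2 : z * z = 1) (h4 : 4 ∣ Nat.card B) :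
    4 ∣ Nat.card {b : G // b ∈ B ∧ (b * b = 1 ∨ b * b = z)} := by
  obtain ⟨z', hz'⟩ : ∃ z' : B, (z' : G) = z := ⟨⟨z, hzB⟩, rfl⟩
  obtain ⟨Z, hZdef⟩ : ∃ Z : Subgroup B, Z = Subgroup.zpowers z' := ⟨_, rfl⟩
  have hord : orderOf z' = 2 := by
    apply orderOf_eq_prime
    · apply Subtype.ext
      rw [pow_two, Subgroup.coe_mul, hz', hz2]; rfl
    · intro h
      apply hz1
      rw [← hz', h]; rfl
  have hZc : Nat.card Z = 2 := by rw [hZdef, Nat.card_zpowers, hord]
  have hmem : ∀ w : B, w ∈ Z ↔ (w = 1 ∨ w = z') := by
    intro w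
    rw [hZdef]
    constructor
    · intro h
      obtain ⟨k, hk⟩ := Subgroup.mem_zpowers_iff.mp h
      have h2 : z' ^ (2 : ℤ) = 1 := by
        have := pow_orderOf_eq_one z'
        rw [hord] at this
        exact_mod_cast this
      rcases Int.even_or_odd' k with ⟨j, hj | hj⟩
      · left; rw [← hk, hj, zpow_mul, h2, one_zpow]
      · right; rw [← hk, hj, zpow_add, zpow_mul, h2, one_zpow, one_mul, zpow_one]
    · rintro (rfl | rfl)
      · exact one_mem _
      · exact Subgroup.mem_zpowers _
  haveI hZn : Z.Normal := ⟨fun w hw g => by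
    rw [hmem] at hw ⊢
    rcases hw with hw | hw
    · left; rw [hw]; group
    · right
      rw [hw]
      have : g * z' = z' * g := Subtype.ext (by
        rw [Subgroup.coe_mul, Subgroup.coe_mul, hz']; exact hz g g.2)
      rw [this, mul_inv_cancel_right]⟩
  have e1 : Nat.card {b : G // b ∈ B ∧ (b * b = 1 ∨ b * b = z)} = Nat.card {b : B // b * b ∈ Z} := by
    refine Nat.card_congr ⟨fun b => ⟨⟨b.1, b.2.1⟩, ?_⟩, fun b => ⟨b.1.1, b.1.2, ?_⟩,
      fun b => rfl, fun b => rfl⟩
    · rw [hmem]
      rcases b.2.2 with h | h
      · left; exact Subtype.ext h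
      · right; exact Subtype.ext (by rw [hz']; exact h)
    · have h := (hmem _).mp b.2
      rcases h with h | h
      · left; exact congrArg Subtype.val h
      · right; have := congrArg Subtype.val h; rw [hz'] at this; exact this
  have e2 : Nat.card {b : B // b * b ∈ Z} = Nat.card {q : B ⧸ Z // q ^ 2 = 1} * 2 := by
    apply CfsgLib.FgCnt.card_eq_mul_of_fiber (fun b : {b : B // b * b ∈ Z} =>
      (⟨(b.1 : B ⧸ Z), by rw [pow_two, ← QuotientGroup.mk_mul, QuotientGroup.eq_one_iff]; exact b.2⟩ :
        {q : B ⧸ Z // q ^ 2 = 1}))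
    rintro ⟨q, hq⟩
    obtain ⟨b0, rfl⟩ := QuotientGroup.mk_surjective q
    have hb0 : b0 * b0 ∈ Z := by
      rwa [pow_two, ← QuotientGroup.mk_mul, QuotientGroup.eq_one_iff] at hq
    have hcen : ∀ w ∈ Z, ∀ g : B, g * w = w * g := by
      intro w hw g
      rcases (hmem w).mp hw with hw | hw
      · rw [hw, mul_one, one_mul]
      · rw [hw]
        exact Subtype.ext (by
          rw [Subgroup.coe_mul, Subgroup.coe_mul, hz']; exact hz g g.2)
    have f1 : ∀ w : Z, b0 * w.1 * (b0 * w.1) ∈ Z := by
      intro w
      have : b0 * w.1 * (b0 * w.1) = (b0 * b0) * (w.1 * w.1) := by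
        have := hcen w.1 w.2 b0
        calc b0 * w.1 * (b0 * w.1) = b0 * (w.1 * b0) * w.1 := by group
          _ = b0 * (b0 * w.1) * w.1 := by rw [this]
          _ = _ := by group
      rw [this]
      exact Z.mul_mem hb0 (Z.mul_mem w.2 w.2)
    have f2 : ∀ w : Z, ((b0 * w.1 : B) : B ⧸ Z) = (b0 : B ⧸ Z) := by
      intro w
      rw [QuotientGroup.mk_mul, (QuotientGroup.eq_one_iff _).mpr w.2, mul_one]
    refine (Nat.card_congr ⟨fun b => ⟨b0⁻¹ * b.1.1,
      QuotientGroup.eq.mp (congrArg Subtype.val b.2).symm⟩,
      fun w => ⟨⟨b0 * w.1, f1 w⟩, Subtype.ext (f2 w)⟩,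
      fun b => ?_, fun w => ?_⟩ : _ = Nat.card Z).trans hZc
    · apply Subtype.ext; apply Subtype.ext
      change b0 * (b0⁻¹ * b.1.1) = b.1.1
      rw [mul_inv_cancel_left]
    · apply Subtype.ext
      change b0⁻¹ * (b0 * w.1) = w.1
      rw [inv_mul_cancel_left]
  have e3 : 2 ∣ Nat.card {q : B ⧸ Z // q ^ 2 = 1} := by
    apply CfsgLib.FgFrob.frobenius
    have h5 := Z.index_mul_card
    rw [hZc] at h5
    change 2 ∣ Z.index
    obtain ⟨k, hk⟩ := h4
    exact ⟨k, by omega⟩
  rw [e1, e2]
  obtain ⟨k, hk⟩ := e3
  rw [hk]
  exact ⟨k, by ring⟩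

/-- the conjugation action of a subgroup on the group -/
@[reducible] def gact (C : Subgroup G) : MulAction C G :=
  MulAction.compHom G ((MulAut.conj : G →* MulAut G).comp C.subtype)

/-- the main counting lemma -/
theorem count_sq {m : ℕ} (hX : Nat.card G = 2 ^ m) (U : Subgroup G) [hUn : U.Normal]
    (hU4 : Nat.card U = 4) (hU2 : ∀ u ∈ U, u * u = 1)
    (h8 : Nat.card G = 8 → ∀ x y : G, x * y = y * x) :
    4 ∣ Nat.card {x : G // x * x = 1} := by
  classical
  haveI : Fintype G := Fintype.ofFinite G
  have hG : IsPGroup 2 G := IsPGroup.of_card hX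
  have hUc : ∀ u ∈ U, ∀ v ∈ U, u * v = v * u := by
    intro u hu v hv
    have h1 := hU2 _ (U.mul_mem hu hv)
    have h2 := hU2 u hu
    have h3 := hU2 v hv
    calc u * v = u * (u * v * (u * v)) * v := by rw [h1, mul_one]
      _ = (u * u) * v * u * (v * v) := by group
      _ = v * u := by rw [h2, h3, one_mul, mul_one]
  -- a central involution in U
  obtain ⟨z, hzU, hzc, hz1⟩ : ∃ z ∈ U, (∀ g : G, g * z = z * g) ∧ z ≠ 1 := by
    have h1 : U ≠ ⊥ := by
      rintro rfl
      rw [Subgroup.card_bot] at hU4
      omega
    haveI := hG.isNilpotent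
    have h2 := CfsgLib.SolvNilp.inf_center_ne_bot U h1
    obtain ⟨z, hz⟩ := (Subgroup.ne_bot_iff_exists_ne_one).mp h2
    exact ⟨z, z.2.1, fun g => Subgroup.mem_center_iff.mp z.2.2 g, fun h => hz (Subtype.ext h)⟩
  have hz2 : z * z = 1 := hU2 z hzU
  have hUcard : (U : Set G).ncard = 4 := hU4
  obtain ⟨a, haU, ha1, haz⟩ : ∃ a ∈ U, a ≠ 1 ∧ a ≠ z := by
    by_contra hno
    push Not at hno
    have h1 : (U : Set G) ⊆ ({1, z} : Finset G) := by
      intro u hu
      by_cases hu1 : u = 1
      · simp [hu1]
      · simp [hno u hu hu1]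
    have h2 := Set.ncard_le_ncard h1 (Finset.finite_toSet _)
    rw [hUcard, Set.ncard_coe_finset] at h2
    have h3 : ({1, z} : Finset G).card ≤ 2 := Finset.card_le_two
    omega
  have ha2 : a * a = 1 := hU2 a haU
  have hU : ∀ u ∈ U, u = 1 ∨ u = z ∨ u = a ∨ u = z * a := by
    have h1 : (({1, z, a, z * a} : Finset G) : Set G) ⊆ U := by
      intro u hu
      simp only [Finset.coe_insert, Finset.coe_singleton, Set.mem_insert_iff,
        Set.mem_singleton_iff] at hu
      rcases hu with rfl | rfl | rfl | rfl
      · exact U.one_mem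
      · exact hzU
      · exact haU
      · exact U.mul_mem hzU haU
    have h2 : ({1, z, a, z * a} : Finset G).card = 4 := by
      rw [Finset.card_insert_of_notMem, Finset.card_insert_of_notMem,
        Finset.card_insert_of_notMem, Finset.card_singleton]
      · simp only [Finset.mem_singleton]
        intro h
        exact hz1 (by simpa using h.symm)
      · simp only [Finset.mem_insert, Finset.mem_singleton, not_or]
        exact ⟨Ne.symm haz, fun h => ha1 (by simpa using h.symm)⟩
      · simp only [Finset.mem_insert, Finset.mem_singleton, not_or]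
        refine ⟨Ne.symm hz1, Ne.symm ha1, fun h => haz ?_⟩
        calc a = z * z * a := by rw [hz2, one_mul]
          _ = z * (z * a) := by group
          _ = z := by rw [← h, mul_one]
    have h3 := Set.eq_of_subset_of_ncard_le h1 (by rw [Set.ncard_coe_finset, h2, hUcard])
      (Set.toFinite _)
    intro u hu
    have h4 : u ∈ (U : Set G) := hu
    rw [← h3] at h4
    simpa using h4
  obtain ⟨C, hC⟩ : ∃ C : Subgroup G, C = Subgroup.centralizer (U : Set G) := ⟨_, rfl⟩
  have memC : ∀ g : G, g ∈ C ↔ a * g = g * a := by
    intro g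
    rw [hC, Subgroup.mem_centralizer_iff]
    constructor
    · intro h; exact h a haU
    · intro h u hu
      rcases hU u hu with rfl | rfl | rfl | rfl
      · rw [one_mul, mul_one]
      · exact (hzc g).symm
      · exact h
      · calc z * a * g = z * (a * g) := by group
          _ = z * (g * a) := by rw [h]
          _ = (z * g) * a := by group
          _ = g * (z * a) := by rw [← hzc g]; group
  have dich : ∀ g, g ∉ C → g * a * g⁻¹ = z * a := by
    intro g hg
    rcases hU _ (hUn.conj_mem a haU g) with h | h | h | h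
    · exfalso; apply ha1
      calc a = g⁻¹ * (g * a * g⁻¹) * g := by group
        _ = 1 := by rw [h]; group
    · exfalso; apply haz
      calc a = g⁻¹ * (g * a * g⁻¹) * g := by group
        _ = g⁻¹ * (z * g) := by rw [h]; group
        _ = z := by rw [← hzc g]; group
    · exfalso; apply hg
      rw [memC]
      calc a * g = (g * a * g⁻¹) * g := by rw [h]
        _ = g * a := by group
    · exact h
  have hUleC : U ≤ C := by
    intro u hu
    rw [memC]; exact hUc a haU u hu
  -- splitting
  rw [card_split (fun x : G => x * x = 1) (fun x => x ∈ C)]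
  apply Nat.dvd_add
  · -- the part inside C
    rw [← hU4]
    apply dvd_of_stable U {x : G | x * x = 1 ∧ x ∈ C}
    rintro u hu x ⟨hx, hxC⟩
    refine ⟨?_, C.mul_mem (hUleC hu) hxC⟩
    have h1 : u * x = x * u := by
      have h2 := hxC
      rw [hC, Subgroup.mem_centralizer_iff] at h2
      exact h2 u hu
    calc u * x * (u * x) = u * (x * u) * x := by group
      _ = u * (u * x) * x := by rw [h1]
      _ = (u * u) * (x * x) := by group
      _ = 1 := by rw [hU2 u hu, hx, one_mul]
  · -- the part outside C
    by_cases hcase : ∃ x, (x * x = 1 ∧ x ∉ C) ∧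
        ¬ 4 ∣ (C ⊓ Subgroup.centralizer {x}).relIndex C
    · obtain ⟨x, ⟨hx2, hxC⟩, hx4⟩ := hcase
      obtain ⟨B, hB⟩ : ∃ B : Subgroup G, B = C ⊓ Subgroup.centralizer {x} := ⟨_, rfl⟩
      rw [← hB] at hx4
      have memB : ∀ g, g ∈ B ↔ g ∈ C ∧ x * g = g * x := by
        intro g
        rw [hB, Subgroup.mem_inf, Subgroup.mem_centralizer_singleton_iff]
        exact and_congr_right fun _ => eq_comm
      have hxa : x * a * x⁻¹ = z * a := dich x hxC
      have haC : a ∈ C := hUleC haU
      have haB : a ∉ B := by
        rw [memB]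
        rintro ⟨-, h⟩
        exact hxC ((memC x).mpr h.symm)
      have hBC : B ≤ C := by rw [hB]; exact inf_le_left
      have hrel : B.relIndex C = 2 := by
        obtain ⟨i, hi⟩ : ∃ i, B.relIndex C = 2 ^ i := IsPGroup.index (hG.to_subgroup C) _
        rcases i with _ | _ | i
        · exfalso
          rw [pow_zero, Subgroup.relIndex_eq_one] at hi
          exact haB (hi haC)
        · simpa using hi
        · exfalso
          apply hx4
          rw [hi]
          exact ⟨2 ^ i, by ring⟩
      have hsplit : ∀ c ∈ C, c ∉ B → a * c ∈ B := by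
        intro c hc hcB
        have h1 := Subgroup.mul_mem_iff_of_index_two (H := B.subgroupOf C) hrel
          (a := ⟨a, haC⟩) (b := ⟨c, hc⟩)
        have h2 : (⟨a, haC⟩ * ⟨c, hc⟩ : C) ∈ B.subgroupOf C := by
          rw [h1, Subgroup.mem_subgroupOf, Subgroup.mem_subgroupOf]
          exact ⟨fun h => absurd h haB, fun h => absurd h hcB⟩
        exact h2
      have hCi : C.index = 2 := by
        rw [Subgroup.index_eq_two_iff]
        refine ⟨x, fun b => ?_⟩
        by_cases hb : b ∈ C
        · right
          exact ⟨hb, fun h => hxC ((C.mul_mem_cancel_left hb).mp h)⟩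
        · left
          refine ⟨?_, hb⟩
          rw [memC]
          have h1 : b * x * a * (b * x)⁻¹ = a := by
            calc b * x * a * (b * x)⁻¹ = b * (x * a * x⁻¹) * b⁻¹ := by group
              _ = b * z * a * b⁻¹ := by rw [hxa]; group
              _ = z * (b * a * b⁻¹) := by rw [hzc b]; group
              _ = z * z * a := by rw [dich b hb]; group
              _ = a := by rw [hz2, one_mul]
          calc a * (b * x) = (b * x * a * (b * x)⁻¹) * (b * x) := by rw [h1]
            _ = b * x * a := by group
      have hzB : z ∈ B := by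
        rw [memB]
        exact ⟨hUleC hzU, hzc x⟩
      have hB4 : 4 ∣ Nat.card B := by
        have h1 := C.index_mul_card
        have h2 := Subgroup.relIndex_mul_relIndex (⊥ : Subgroup G) B C bot_le hBC
        rw [Subgroup.relIndex_bot_left, Subgroup.relIndex_bot_left, hrel] at h2
        rw [hCi, ← h2, hX] at h1
        obtain ⟨j, hj⟩ := IsPGroup.iff_card.mp (hG.to_subgroup B)
        have hj1 : 1 ≤ j := by
          by_contra hlt
          have hj0 : j = 0 := by omega
          rw [hj0, pow_zero, Subgroup.card_eq_one] at hj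
          rw [hj, Subgroup.mem_bot] at hzB
          exact hz1 hzB
        have hj2 : j ≠ 1 := by
          rintro rfl
          rw [hj] at h1
          have h3 := h8 (by rw [hX, ← h1]; norm_num) a x
          exact hxC ((memC x).mpr h3)
        rw [hj, show (4 : ℕ) = 2 ^ 2 by norm_num]
        exact pow_dvd_pow 2 (by omega)
      have hfin := four_dvd_B B z hzB (fun g _ => hzc g) hz1 hz2 hB4
      have hbij : Nat.card {b : G // b ∈ B ∧ (b * b = 1 ∨ b * b = z)} =
          Nat.card {y : G // y * y = 1 ∧ y ∉ C} := by
        have sq1 : ∀ b ∈ B, x * b * (x * b) = b * b := by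
          intro b hb
          have h1 := ((memB b).mp hb).2
          calc x * b * (x * b) = x * (b * x) * b := by group
            _ = x * (x * b) * b := by rw [h1]
            _ = (x * x) * (b * b) := by group
            _ = b * b := by rw [hx2, one_mul]
        have sq2 : ∀ b ∈ B, x * (a * b) * (x * (a * b)) = z * (b * b) := by
          intro b hb
          have h1 := ((memB b).mp hb).2
          have h2 := (memC b).mp ((memB b).mp hb).1
          have h3 : x * a * x = z * a := by
            rw [← hxa]
            have : x⁻¹ = x := inv_eq_of_mul_eq_one_left hx2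
            rw [this]
          calc x * (a * b) * (x * (a * b)) = x * a * (b * x) * a * b := by group
            _ = x * a * (x * b) * a * b := by rw [h1]
            _ = (x * a * x) * (b * a) * b := by group
            _ = (z * a) * (a * b) * b := by rw [h3, h2]
            _ = z * (a * a) * (b * b) := by group
            _ = z * (b * b) := by rw [ha2, mul_one]
        have nc : ∀ c ∈ C, x * c ∉ C := fun c hc h => hxC ((C.mul_mem_cancel_right hc).mp h)
        refine Nat.card_congr (Equiv.ofBijective (fun b => if h : b.1 * b.1 = 1 then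
          ⟨x * b.1, by rw [sq1 b.1 b.2.1]; exact h, nc _ (hBC b.2.1)⟩ else
          ⟨x * (a * b.1), by
            rw [sq2 b.1 b.2.1, b.2.2.resolve_left h, hz2], nc _ (C.mul_mem haC (hBC b.2.1))⟩) ⟨?_, ?_⟩)
        · rintro ⟨b, hb, hb'⟩ ⟨c, hc, hc'⟩ h
          apply Subtype.ext
          simp only at h
          split_ifs at h with h1 h2 h2
          · exact mul_left_cancel (congrArg Subtype.val h)
          · exfalso
            have h3 : x * b = x * (a * c) := congrArg Subtype.val h
            have h4 := mul_left_cancel h3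
            apply haB
            have : a = b * c⁻¹ := by rw [h4]; group
            rw [this]; exact B.mul_mem hb (B.inv_mem hc)
          · exfalso
            have h3 : x * (a * b) = x * c := congrArg Subtype.val h
            have h4 := mul_left_cancel h3
            apply haB
            have : a = c * b⁻¹ := by rw [← h4]; group
            rw [this]; exact B.mul_mem hc (B.inv_mem hb)
          · have h3 : x * (a * b) = x * (a * c) := congrArg Subtype.val h
            exact mul_left_cancel (mul_left_cancel h3)
        · rintro ⟨y, hy, hyC⟩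
          have hc : x⁻¹ * y ∈ C := by
            have h5 : (x * a * x⁻¹) = y * a * y⁻¹ := by rw [hxa, dich y hyC]
            rw [memC]
            calc a * (x⁻¹ * y) = x⁻¹ * (x * a * x⁻¹) * y := by group
              _ = x⁻¹ * (y * a * y⁻¹) * y := by rw [h5]
              _ = x⁻¹ * y * a := by group
          by_cases hcB : x⁻¹ * y ∈ B
          · have h6 : (x⁻¹ * y) * (x⁻¹ * y) = 1 := by
              rw [← sq1 _ hcB, mul_inv_cancel_left]; exact hy
            refine ⟨⟨x⁻¹ * y, hcB, Or.inl h6⟩, ?_⟩
            exact (dif_pos h6).trans (Subtype.ext (mul_inv_cancel_left x y))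
          · have h7 := hsplit _ hc hcB
            have h8' : a * (a * (x⁻¹ * y)) = x⁻¹ * y := by
              rw [← mul_assoc, ha2, one_mul]
            have h6 : z * ((a * (x⁻¹ * y)) * (a * (x⁻¹ * y))) = 1 := by
              rw [← sq2 _ h7, h8', mul_inv_cancel_left]; exact hy
            have h9 : (a * (x⁻¹ * y)) * (a * (x⁻¹ * y)) = z := by
              have := congrArg (z * ·) h6
              simp only [← mul_assoc, hz2, one_mul, mul_one] at this
              simpa [mul_assoc] using this
            refine ⟨⟨a * (x⁻¹ * y), h7, Or.inr h9⟩, ?_⟩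
            have h10 : ¬ (a * (x⁻¹ * y)) * (a * (x⁻¹ * y)) = 1 := by rw [h9]; exact hz1
            refine (dif_neg h10).trans (Subtype.ext ?_)
            change x * (a * (a * (x⁻¹ * y))) = y
            rw [h8', mul_inv_cancel_left]
      rw [← hbij]
      exact hfin
    · push Not at hcase
      letI := gact C
      have hsm : ∀ (c : C) (y : G), c • y = c * y * (c : G)⁻¹ := fun c y => rfl
      have h := CfsgLib.FgCount.dvd_sum_of_orbits (L := C) (X := G)
        (fun y => if (y * y = 1 ∧ y ∉ C) then (1 : ℤ) else 0) (fun c y => by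
          have e1 : c • y * c • y = 1 ↔ y * y = 1 := by
            rw [hsm]
            have : (c : G) * y * (c : G)⁻¹ * ((c : G) * y * (c : G)⁻¹) = c * (y * y) * (c : G)⁻¹ := by
              group
            rw [this]
            constructor
            · intro h
              have h2 : y * y = (c : G)⁻¹ * (c * (y * y) * (c : G)⁻¹) * c := by group
              rw [h2, h]; group
            · intro h; rw [h]; group
          have e2 : c • y ∈ C ↔ y ∈ C := by
            rw [hsm, C.mul_mem_cancel_right (C.inv_mem c.2), C.mul_mem_cancel_left c.2]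
          simp only [e1, e2]) (4 : ℤ) (fun y => by
          by_cases hy : y * y = 1 ∧ y ∉ C
          · have h1 : Nat.card (MulAction.orbit C y) =
                (C ⊓ Subgroup.centralizer {y}).relIndex C := by
              rw [Nat.card_congr (MulAction.orbitEquivQuotientStabilizer C y)]
              change (MulAction.stabilizer C y).index = _
              congr 1
              ext c
              rw [Subgroup.mem_subgroupOf, Subgroup.mem_inf, MulAction.mem_stabilizer_iff, hsm,
                Subgroup.mem_centralizer_singleton_iff]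
              constructor
              · intro h
                exact ⟨c.2, mul_inv_eq_iff_eq_mul.mp h⟩
              · intro h
                exact mul_inv_eq_iff_eq_mul.mpr h.2
            rw [h1, if_pos hy, mul_one]
            exact_mod_cast hcase y hy
          · rw [if_neg hy, mul_zero]; exact dvd_zero _)
      have h2 : (∑ y : G, (if (y * y = 1 ∧ y ∉ C) then (1 : ℤ) else 0)) =
          (Nat.card {y : G // y * y = 1 ∧ y ∉ C} : ℤ) := by
        rw [Finset.sum_boole, Nat.card_eq_fintype_card, Fintype.card_subtype]
      rw [h2] at h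
      exact_mod_cast h

end

end CfsgLib.KulH12
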