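import Mathlib
import Cfsg.Agent.EqBase
import Cfsg.Agent.LibKulBH12
import Cfsg.Agent.LibKulDH12
import Cfsg.Agent.LibKulEH12
import Cfsg.Agent.LibMaxClass3

/-! Subgroups of 2-groups modulo 4. -/

set_option autoImplicit false
set_option linter.style.haveILetI false
set_option linter.unusedSectionVars false

universe u

namespace CfsgLib.KulH12

theorem dvd_card_gen {Q : Type*} [Group Q] [Finite Q] {p : ℕ} [hp : Fact p.Prime]
    (E : Subgroup Q) [hEn : E.Normal] (hEp : ∀ e ∈ E, e ^ p = 1) (hEcard : Nat.card E = p ^ 2) {r : ℕ}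
    (hord : ∀ x : Q, orderOf x = p ^ (r + 2) → ∀ e ∈ E, orderOf (x * e) = p ^ (r + 2)) :
    p ^ (r + 2) ∣ Nat.card {x : Q // orderOf x = p ^ (r + 2)} := by
  classical
  have hpp := hp.out
  let B : Set (Q ⧸ E) := {b | ∃ x : Q, orderOf x = p ^ (r + 2) ∧ (x : Q ⧸ E) = b}
  have hcard : Nat.card {x : Q // orderOf x = p ^ (r + 2)} = Nat.card B * p ^ 2 := by
    apply CfsgLib.FgCnt.card_eq_mul_of_fiber (fun x : {x : Q // orderOf x = p ^ (r + 2)} => (⟨(x.1 : Q ⧸ E), x.1, x.2, rfl⟩ : B))
    rintro ⟨b, x0, hx0, rfl⟩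
    rw [← hEcard]
    apply Nat.card_congr
    refine ⟨fun a => ⟨x0⁻¹ * a.1.1, ?_⟩, fun e => ⟨⟨x0 * e.1, hord x0 hx0 e.1 e.2⟩, ?_⟩, fun a => ?_, fun e => ?_⟩
    · have := congrArg Subtype.val a.2
      exact QuotientGroup.eq.mp this.symm
    · apply Subtype.ext
      change ((x0 * e.1 : Q) : Q ⧸ E) = (x0 : Q ⧸ E)
      rw [QuotientGroup.mk_mul, (QuotientGroup.eq_one_iff _).mpr e.2, mul_one]
    · apply Subtype.ext; apply Subtype.ext
      change x0 * (x0⁻¹ * a.1.1) = a.1.1
      rw [mul_inv_cancel_left]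
    · apply Subtype.ext
      change x0⁻¹ * (x0 * e.1) = e.1
      rw [inv_mul_cancel_left]
  have hB : ∀ b ∈ B, orderOf b = p ^ (r + 1) ∨ orderOf b = p ^ (r + 2) := by
    rintro b ⟨x, hx, rfl⟩
    have h1 : orderOf (x : Q ⧸ E) ∣ p ^ (r + 2) := by
      rw [← hx]; exact orderOf_map_dvd (QuotientGroup.mk' E) x
    obtain ⟨i, hi, hie⟩ := (Nat.dvd_prime_pow hpp).mp h1
    have h2 : r < i := by
      by_contra hlt
      have h3 : (x : Q ⧸ E) ^ p ^ r = 1 := by
        apply orderOf_dvd_iff_pow_eq_one.mp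
        rw [hie]; exact pow_dvd_pow _ (by omega)
      rw [← QuotientGroup.mk_pow, QuotientGroup.eq_one_iff] at h3
      have h4 := hEp _ h3
      rw [← pow_mul, ← pow_succ] at h4
      have := orderOf_dvd_of_pow_eq_one h4
      rw [hx, Nat.pow_dvd_pow_iff_le_right hpp.one_lt] at this
      omega
    have h3 : i = r + 1 ∨ i = r + 2 := by omega
    rcases h3 with h3 | h3 <;> rw [hie, h3]
    · exact Or.inl rfl
    · exact Or.inr rfl
  have hBpow : ∀ i, 0 < i → ∀ b ∈ B, orderOf b = p ^ i → ∀ k : ℕ, Nat.Coprime k (p ^ i) → b ^ k ∈ B := by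
    rintro i hi b ⟨x, hx, rfl⟩ hb k hk
    refine ⟨x ^ k, ?_, QuotientGroup.mk_pow _ _ _⟩
    rw [Nat.Coprime.orderOf_pow, hx]
    rw [hx]
    exact Nat.Coprime.pow_left _ (Nat.Coprime.symm (Nat.Coprime.coprime_dvd_right (dvd_pow_self p hi.ne') hk))
  have d1 := CfsgLib.FgCnt.totient_dvd_card B (p ^ (r + 1)) (Nat.one_lt_pow (by omega) hpp.one_lt) (hBpow _ (by omega))
  have d2 := CfsgLib.FgCnt.totient_dvd_card B (p ^ (r + 2)) (Nat.one_lt_pow (by omega) hpp.one_lt) (hBpow _ (by omega))
  have hsum : Nat.card B = Nat.card {b : Q ⧸ E // b ∈ B ∧ orderOf b = p ^ (r + 1)} +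
      Nat.card {b : Q ⧸ E // b ∈ B ∧ orderOf b = p ^ (r + 2)} := by
    have := Fintype.ofFinite (Q ⧸ E)
    rw [Nat.card_eq_fintype_card, Nat.card_eq_fintype_card, Nat.card_eq_fintype_card]
    rw [show Fintype.card B = Fintype.card {b : Q ⧸ E // b ∈ B} from rfl, Fintype.card_subtype, Fintype.card_subtype,
      Fintype.card_subtype, ← Finset.card_union_of_disjoint]
    · congr 1
      ext b
      simp only [Finset.mem_filter, Finset.mem_univ, true_and, Finset.mem_union]
      constructor
      · intro hb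
        rcases hB b hb with h | h
        · exact Or.inl ⟨hb, h⟩
        · exact Or.inr ⟨hb, h⟩
      · rintro (h | h) <;> exact h.1
    · rw [Finset.disjoint_left]
      intro b h1 h2
      simp only [Finset.mem_filter, Finset.mem_univ, true_and] at h1 h2
      have := h1.2.symm.trans h2.2
      have := Nat.pow_right_injective hpp.two_le this
      omega
  have t1 : p ^ r ∣ Nat.totient (p ^ (r + 1)) := by
    rw [Nat.totient_prime_pow_succ hpp]; exact Dvd.intro _ rfl
  have t2 : p ^ r ∣ Nat.totient (p ^ (r + 2)) := by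
    rw [Nat.totient_prime_pow_succ hpp]; exact (pow_dvd_pow p (Nat.le_succ r)).trans (Dvd.intro _ rfl)
  rw [hcard, hsum]
  refine (dvd_of_eq (pow_add p r 2)).trans ?_
  exact Nat.mul_dvd_mul (Nat.dvd_add (t1.trans d1) (t2.trans d2)) dvd_rfl


section
variable {G : Type u} [Group G] [Finite G]

theorem sq_comm {m : ℕ} (hX : Nat.card G = 2 ^ m) (U : Subgroup G) [hUn : U.Normal]
    (hU4 : Nat.card U = 4) (hU2 : ∀ u ∈ U, u * u = 1) (x : G) (u : G) (hu : u ∈ U) :
    (x * x) * u = u * (x * x) := by
  classical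
  haveI : Fintype G := Fintype.ofFinite G
  have hG : IsPGroup 2 G := IsPGroup.of_card hX
  have hUc : ∀ u ∈ U, ∀ v ∈ U, u * v = v * u := by
    intro u hu v hv
    have h1 := hU2 _ (U.mul_mem hu hv)
    have h2 := hU2 u hu
    have h3 := hU2 v hv
    calc u * v = u * (u * v * (u * v)) * v := by rw [h1, mul_one]
      _ = (u * u) * v * u * (v * v) := by group
      _ = v * u := by rw [h2, h3, one_mul, mul_one]
  -- a central involution in U
  obtain ⟨z, hzU, hzc, hz1⟩ : ∃ z ∈ U, (∀ g : G, g * z = z * g) ∧ z ≠ 1 := by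
    have h1 : U ≠ ⊥ := by
      rintro rfl
      rw [Subgroup.card_bot] at hU4
      omega
    haveI := hG.isNilpotent
    have h2 := CfsgLib.SolvNilp.inf_center_ne_bot U h1
    obtain ⟨z, hz⟩ := (Subgroup.ne_bot_iff_exists_ne_one).mp h2
    exact ⟨z, z.2.1, fun g => Subgroup.mem_center_iff.mp z.2.2 g, fun h => hz (Subtype.ext h)⟩
  have hz2 : z * z = 1 := hU2 z hzU
  have hUcard : (U : Set G).ncard = 4 := hU4
  obtain ⟨a, haU, ha1, haz⟩ : ∃ a ∈ U, a ≠ 1 ∧ a ≠ z := by
    by_contra hno
    push Not at hno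
    have h1 : (U : Set G) ⊆ ({1, z} : Finset G) := by
      intro u hu
      by_cases hu1 : u = 1
      · simp [hu1]
      · simp [hno u hu hu1]
    have h2 := Set.ncard_le_ncard h1 (Finset.finite_toSet _)
    rw [hUcard, Set.ncard_coe_finset] at h2
    have h3 : ({1, z} : Finset G).card ≤ 2 := Finset.card_le_two
    omega
  have ha2 : a * a = 1 := hU2 a haU
  have hU : ∀ u ∈ U, u = 1 ∨ u = z ∨ u = a ∨ u = z * a := by
    have h1 : (({1, z, a, z * a} : Finset G) : Set G) ⊆ U := by
      intro u hu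
      simp only [Finset.coe_insert, Finset.coe_singleton, Set.mem_insert_iff,
        Set.mem_singleton_iff] at hu
      rcases hu with rfl | rfl | rfl | rfl
      · exact U.one_mem
      · exact hzU
      · exact haU
      · exact U.mul_mem hzU haU
    have h2 : ({1, z, a, z * a} : Finset G).card = 4 := by
      rw [Finset.card_insert_of_notMem, Finset.card_insert_of_notMem,
        Finset.card_insert_of_notMem, Finset.card_singleton]
      · simp only [Finset.mem_singleton]
        intro h
        exact hz1 (by simpa using h.symm)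
      · simp only [Finset.mem_insert, Finset.mem_singleton, not_or]
        exact ⟨Ne.symm haz, fun h => ha1 (by simpa using h.symm)⟩
      · simp only [Finset.mem_insert, Finset.mem_singleton, not_or]
        refine ⟨Ne.symm hz1, Ne.symm ha1, fun h => haz ?_⟩
        calc a = z * z * a := by rw [hz2, one_mul]
          _ = z * (z * a) := by group
          _ = z := by rw [← h, mul_one]
    have h3 := Set.eq_of_subset_of_ncard_le h1 (by rw [Set.ncard_coe_finset, h2, hUcard])
      (Set.toFinite _)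
    intro u hu
    have h4 : u ∈ (U : Set G) := hu
    rw [← h3] at h4
    simpa using h4
  obtain ⟨C, hC⟩ : ∃ C : Subgroup G, C = Subgroup.centralizer (U : Set G) := ⟨_, rfl⟩
  have memC : ∀ g : G, g ∈ C ↔ a * g = g * a := by
    intro g
    rw [hC, Subgroup.mem_centralizer_iff]
    constructor
    · intro h; exact h a haU
    · intro h u hu
      rcases hU u hu with rfl | rfl | rfl | rfl
      · rw [one_mul, mul_one]
      · exact (hzc g).symm
      · exact h
      · calc z * a * g = z * (a * g) := by group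
          _ = z * (g * a) := by rw [h]
          _ = (z * g) * a := by group
          _ = g * (z * a) := by rw [← hzc g]; group
  have dich : ∀ g, g ∉ C → g * a * g⁻¹ = z * a := by
    intro g hg
    rcases hU _ (hUn.conj_mem a haU g) with h | h | h | h
    · exfalso; apply ha1
      calc a = g⁻¹ * (g * a * g⁻¹) * g := by group
        _ = 1 := by rw [h]; group
    · exfalso; apply haz
      calc a = g⁻¹ * (g * a * g⁻¹) * g := by group
        _ = g⁻¹ * (z * g) := by rw [h]; group
        _ = z := by rw [← hzc g]; group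
    · exfalso; apply hg
      rw [memC]
      calc a * g = (g * a * g⁻¹) * g := by rw [h]
        _ = g * a := by group
    · exact h
  have key : a * (x * x) = x * x * a := by
    by_cases hx : x ∈ C
    · exact (memC _).mp (C.mul_mem hx hx)
    · have h1 := dich x hx
      have h2 : x * x * a * (x * x)⁻¹ = a := by
        calc x * x * a * (x * x)⁻¹ = x * (x * a * x⁻¹) * x⁻¹ := by group
          _ = (x * z) * a * x⁻¹ := by rw [h1]; group
          _ = z * (x * a * x⁻¹) := by rw [hzc x]; group
          _ = z * z * a := by rw [h1]; group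
          _ = a := by rw [hz2, one_mul]
      calc a * (x * x) = (x * x * a * (x * x)⁻¹) * (x * x) := by rw [h2]
        _ = _ := by group
  have h3 : x * x ∈ C := (memC _).mpr key
  rw [hC, Subgroup.mem_centralizer_iff] at h3
  exact (h3 u hu).symm

theorem cc_even_big {m : ℕ} (hX : Nat.card G = 2 ^ m) (U : Subgroup G) [hUn : U.Normal]
    (hU4 : Nat.card U = 4) (hU2 : ∀ u ∈ U, u * u = 1) (r : ℕ) : 2 ∣ cc G (2 ^ (r + 3)) := by
  have h4 : ∀ x : G, ∀ e ∈ U, (x * e) ^ 4 = x ^ 4 := by
    intro x e he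
    obtain ⟨v, hv⟩ : ∃ v, v = x⁻¹ * e * x * e := ⟨_, rfl⟩
    have hvU : v ∈ U := by
      rw [hv]
      have := hUn.conj_mem e he x⁻¹
      rw [inv_inv] at this
      exact U.mul_mem this he
    have h1 : (x * e) * (x * e) = (x * x) * v := by rw [hv]; group
    have h2 := sq_comm hX U hU4 hU2 x v hvU
    calc (x * e) ^ 4 = ((x * e) * (x * e)) * ((x * e) * (x * e)) := by
          rw [show (4 : ℕ) = 2 + 2 by norm_num, pow_add, pow_two]
      _ = (x * x) * v * ((x * x) * v) := by rw [h1]
      _ = (x * x) * (v * (x * x)) * v := by group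
      _ = (x * x) * ((x * x) * v) * v := by rw [h2]
      _ = (x * x) * (x * x) * (v * v) := by group
      _ = x ^ 4 := by
          rw [hU2 v hvU, mul_one, show (4 : ℕ) = 2 + 2 by norm_num, pow_add, pow_two]
  have hord : ∀ x : G, orderOf x = 2 ^ (r + 1 + 2) → ∀ e ∈ U, orderOf (x * e) = 2 ^ (r + 1 + 2) := by
    intro x hx e he
    have e1 : ∀ i, (x * e) ^ 2 ^ (i + 2) = x ^ 2 ^ (i + 2) := by
      intro i
      rw [pow_add 2 i 2, mul_comm, pow_mul, show (2 : ℕ) ^ 2 = 4 by norm_num, h4 x e he, ← pow_mul]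
    apply orderOf_eq_prime_pow
    · rw [show r + 1 + 1 = r + 2 by ring, e1]
      intro h
      have := orderOf_dvd_of_pow_eq_one h
      rw [hx, Nat.pow_dvd_pow_iff_le_right (by norm_num)] at this
      omega
    · rw [show r + 1 + 1 + 1 = (r + 1) + 2 by ring, e1, ← hx, pow_orderOf_eq_one]
  haveI : Fact (Nat.Prime 2) := ⟨Nat.prime_two⟩
  have h1 := dvd_card_gen (p := 2) U (fun e he => by rw [pow_two]; exact hU2 e he)
    (by rw [hU4]; norm_num) hord
  have h2 : Nat.card {x : G // orderOf x = 2 ^ (r + 1 + 2)} = cc G (2 ^ (r + 3)) *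
      Nat.totient (2 ^ (r + 3)) := by
    apply CfsgLib.FgCnt.card_eq_mul_of_fiber (fun x : {x : G // orderOf x = 2 ^ (r + 1 + 2)} =>
      (⟨Subgroup.zpowers x.1, by rw [Nat.card_zpowers]; exact x.2, inferInstance⟩ :
        {H : Subgroup G // Nat.card H = 2 ^ (r + 3) ∧ IsCyclic H}))
    rintro ⟨C, hC1, hC2⟩
    have h3 := CfsgLib.FgCnt.card_gen C hC2
    rw [hC1] at h3
    exact (Nat.card_congr ⟨fun x => ⟨x.1.1, congrArg Subtype.val x.2⟩,
      fun x => ⟨⟨x.1, by rw [← Nat.card_zpowers, x.2, hC1]⟩,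
      Subtype.ext x.2⟩, fun x => rfl, fun x => rfl⟩).trans h3
  have h0 : Nat.totient (2 ^ (r + 3)) = 2 ^ (r + 2) * (2 - 1) :=
    Nat.totient_prime_pow_succ Nat.prime_two (r + 2)
  rw [h2, h0] at h1
  have h3 : 2 ^ (r + 2) * 2 ∣ 2 ^ (r + 2) * cc G (2 ^ (r + 3)) := by
    have e1 : 2 ^ (r + 2) * cc G (2 ^ (r + 3)) = cc G (2 ^ (r + 3)) * (2 ^ (r + 2) * (2 - 1)) := by
      rw [show (2 - 1 : ℕ) = 1 by norm_num, mul_one, mul_comm]
    rw [e1]
    exact h1
  exact Nat.dvd_of_mul_dvd_mul_left (by positivity) h3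

/-- number of involutions -/
theorem nn_two : nn G 2 + 1 = Nat.card {x : G // x * x = 1} := by
  haveI : Fact (Nat.Prime 2) := ⟨Nat.prime_two⟩
  have h2 : Nat.card {x : G // orderOf x = 2} = cc G 2 * Nat.totient 2 := by
    apply CfsgLib.FgCnt.card_eq_mul_of_fiber (fun x : {x : G // orderOf x = 2} =>
      (⟨Subgroup.zpowers x.1, by rw [Nat.card_zpowers]; exact x.2, inferInstance⟩ :
        {H : Subgroup G // Nat.card H = 2 ∧ IsCyclic H}))
    rintro ⟨C, hC1, hC2⟩
    have h3 := CfsgLib.FgCnt.card_gen C hC2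
    rw [hC1] at h3
    exact (Nat.card_congr ⟨fun x => ⟨x.1.1, congrArg Subtype.val x.2⟩,
      fun x => ⟨⟨x.1, by rw [← Nat.card_zpowers, x.2, hC1]⟩,
      Subtype.ext x.2⟩, fun x => rfl, fun x => rfl⟩).trans h3
  rw [Nat.totient_two, mul_one] at h2
  rw [card_split (fun x : G => x * x = 1) (fun x => x ≠ 1), ← cc_prime (p := 2), ← h2]
  congr 1
  · apply Nat.card_congr
    apply Equiv.subtypeEquivRight
    intro x
    constructor
    · intro h
      refine ⟨?_, ?_⟩
      · rw [← pow_two, ← h, pow_orderOf_eq_one]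
      · rintro rfl
        rw [orderOf_one] at h
        omega
    · rintro ⟨h1, h3⟩
      exact orderOf_eq_prime (by rw [pow_two]; exact h1) h3
  · symm
    rw [Nat.card_eq_one_iff_unique]
    refine ⟨⟨fun x y => Subtype.ext ?_⟩, ⟨⟨1, one_mul 1, by simp⟩⟩⟩
    rw [not_not.mp x.2.2, not_not.mp y.2.2]

theorem comm_eight (h : Nat.card G = 8) (hnc : ¬ IsCyclic G) (hidx : (commutator G).index ≠ 4)
    (x y : G) : x * y = y * x := by
  have hG : IsPGroup 2 G := IsPGroup.of_card (n := 3) (by rw [h]; norm_num)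
  by_contra hxy
  have hc : commutator G ≠ ⊥ := by
    intro hb
    apply hxy
    have h1 : x * y * x⁻¹ * y⁻¹ ∈ commutator G := by
      rw [commutator_def]
      exact Subgroup.commutator_mem_commutator (Subgroup.mem_top x) (Subgroup.mem_top y)
    rw [hb, Subgroup.mem_bot] at h1
    calc x * y = (x * y * x⁻¹ * y⁻¹) * (y * x) := by group
      _ = y * x := by rw [h1, one_mul]
  have h1 := (commutator G).index_mul_card
  rw [h] at h1
  have h2 : (commutator G).index ∣ 2 ^ 3 := by
    rw [show (2 : ℕ) ^ 3 = 8 by norm_num, ← h1]; exact dvd_mul_right _ _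
  obtain ⟨i, hi, hii⟩ := (Nat.dvd_prime_pow Nat.prime_two).mp h2
  interval_cases i
  · apply hnc
    apply CfsgLib.H2Max.cyclic_of_comm_quot hG
    haveI : Subsingleton (G ⧸ commutator G) := (Nat.card_eq_one_iff_unique.mp hii).1
    infer_instance
  · apply hnc
    haveI : Fact (Nat.Prime 2) := ⟨Nat.prime_two⟩
    apply CfsgLib.H2Max.cyclic_of_comm_quot hG
    exact isCyclic_of_prime_card (p := 2) hii
  · exact hidx (by rw [hii]; norm_num)
  · rw [hii] at h1
    have h3 : Nat.card (commutator G) = 1 := by omega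
    exact hc (Subgroup.card_eq_one.mp h3)

end

theorem main2 (m : ℕ) : ∀ (G : Type u) [Group G] [Finite G], Nat.card G = 2 ^ m → ¬ IsCyclic G →
    ((commutator G).index = 4 → m = 2) →
    (∀ b, b + 1 < m → nn G (2 ^ (b + 1)) ≡ 3 [MOD 4]) ∧ (∀ b, 2 ∣ cc G (2 ^ (b + 2))) := by
  haveI : Fact (Nat.Prime 2) := ⟨Nat.prime_two⟩
  induction m with
  | zero =>
    intro G _ _ hX hnc _
    exfalso
    apply hnc
    haveI : Subsingleton G := (Nat.card_eq_one_iff_unique.mp (by rw [hX, pow_zero])).1
    infer_instance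
  | succ n ih =>
    intro G _ _ hX hnc h4
    have hG : IsPGroup 2 G := IsPGroup.of_card hX
    haveI := hG.isNilpotent
    -- the central subgroup
    obtain ⟨Z, hZ, hZp, hZc⟩ : ∃ Z : Subgroup G, Z ≤ Subgroup.center G ∧ Nat.card Z = 2 ∧
        (commutator G = ⊥ ∨ Z ≤ commutator G) := by
      have key : ∀ W : Subgroup G, W ≠ ⊥ → W ≤ Subgroup.center G →
          ∃ Z : Subgroup G, Z ≤ W ∧ Nat.card Z = 2 := by
        intro W hW _
        obtain ⟨w, hw⟩ := exists_prime_orderOf_dvd_card' (G := W) 2 (by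
          obtain ⟨k, hk⟩ := IsPGroup.iff_card.mp (hG.to_subgroup W)
          rw [hk]
          refine dvd_pow_self 2 ?_
          rintro rfl
          rw [pow_zero, Subgroup.card_eq_one] at hk
          exact hW hk)
        exact ⟨Subgroup.zpowers (w : G), by rw [Subgroup.zpowers_le]; exact w.2,
          by rw [Nat.card_zpowers, Subgroup.orderOf_coe, hw]⟩
      by_cases hc : commutator G = ⊥
      · haveI : Nontrivial G := by
          rw [← Finite.one_lt_card_iff_nontrivial, hX]
          exact Nat.one_lt_pow (by omega) (by norm_num)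
        haveI := hG.center_nontrivial
        obtain ⟨Z, h1, h2⟩ := key (Subgroup.center G)
          ((Subgroup.nontrivial_iff_ne_bot _).mp inferInstance) le_rfl
        exact ⟨Z, h1, h2, Or.inl hc⟩
      · obtain ⟨Z, h1, h2⟩ := key (commutator G ⊓ Subgroup.center G)
          (CfsgLib.SolvNilp.inf_center_ne_bot _ hc) inf_le_right
        exact ⟨Z, h1.trans inf_le_right, h2, Or.inr (h1.trans inf_le_left)⟩
    haveI : Z.Normal := ⟨fun w hw g => by
      rw [← comm_of_mem Z hZ hw, mul_inv_cancel_right]; exact hw⟩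
    have hQ : Nat.card (G ⧸ Z) = 2 ^ n := by
      have h1 := Z.index_mul_card
      rw [hZp, hX, pow_succ] at h1
      exact Nat.eq_of_mul_eq_mul_right (by norm_num) h1
    have hrec := fun b => recursion (p := 2) hG Z hZ hZp b
    have hn1 : 1 ≤ n := by
      by_contra hlt
      have : n = 0 := by omega
      subst this
      apply hnc
      exact isCyclic_of_prime_card (p := 2) (by rw [hX]; norm_num)
    have hodd : nn (G ⧸ Z) 2 ≡ 1 [MOD 2] := by
      have := CfsgLib.FgCount.frobenius (G := G ⧸ Z) 2 1 Nat.prime_two (by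
        rw [hQ]; exact pow_dvd_pow 2 hn1)
      rwa [pow_one] at this
    have hb0 : nn G 2 + 2 * cc G 4 ≡ 3 [MOD 4] := by
      have h1 := hrec 0
      rw [zero_add, zero_add, pow_one, pow_zero, nn_one, cc_prime (G := G ⧸ Z) (p := 2)] at h1
      have h2 : nn (G ⧸ Z) 2 % 2 = 1 := hodd
      have h3 : (nn G 2 + 2 * cc G (2 ^ 2)) % 4 = (1 + 2 * nn (G ⧸ Z) 2) % 4 := by
        exact h1
      change (nn G 2 + 2 * cc G 4) % 4 = 3 % 4
      norm_num at h3 ⊢
      omega
    by_cases hm2 : n = 1
    · -- order 4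
      subst hm2
      have hcc : ∀ b, cc G (2 ^ (b + 2)) = 0 := by
        intro b
        have : IsEmpty {H : Subgroup G // Nat.card H = 2 ^ (b + 2) ∧ IsCyclic H} := by
          constructor
          rintro ⟨H, hH1, hH2⟩
          have h1 : Nat.card H ∣ Nat.card G := Subgroup.card_subgroup_dvd_card H
          have h2 : Nat.card G ≤ Nat.card H := by
            rw [hH1, hX]
            exact Nat.pow_le_pow_right (by norm_num) (by omega)
          have h3 : H = ⊤ := Subgroup.eq_top_of_card_eq H
            (le_antisymm (Nat.le_of_dvd Nat.card_pos h1) h2)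
          rw [h3] at hH2
          apply hnc
          haveI := hH2
          exact isCyclic_of_surjective (Subgroup.topEquiv (G := G)) (Subgroup.topEquiv).surjective
        exact Nat.card_of_isEmpty
      refine ⟨fun b hb => ?_, fun b => by rw [hcc]; exact dvd_zero _⟩
      have hb' : b = 0 := by omega
      subst hb'
      have h1 := hcc 0
      norm_num at h1
      rw [h1, mul_zero, add_zero] at hb0
      simpa using hb0
    · have hidx : (commutator G).index ≠ 4 := fun h => by
        have := h4 h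
        omega
      obtain ⟨U, hUn, hU4, hU2⟩ := exists_four hX hnc hidx
      have hsq := count_sq hX U hU4 hU2 (fun h8 x y => comm_eight h8 hnc hidx x y)
      rw [← nn_two] at hsq
      have hnn2 : nn G 2 ≡ 3 [MOD 4] := by
        change nn G 2 % 4 = 3 % 4
        omega
      have hcc4 : 2 ∣ cc G 4 := by
        have h1 : (nn G 2 + 2 * cc G 4) % 4 = 3 % 4 := hb0
        have h2 : nn G 2 % 4 = 3 % 4 := hnn2
        omega
      have hccall : ∀ b, 2 ∣ cc G (2 ^ (b + 2)) := by
        intro b
        rcases b with _ | b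
        · simpa using hcc4
        · exact cc_even_big hX U hU4 hU2 b
      refine ⟨fun b hb => ?_, hccall⟩
      rcases b with _ | b
      · simpa using hnn2
      · have h1 := hrec (b + 1)
        have h2 : (nn G (2 ^ (b + 1 + 1)) + 2 * cc G (2 ^ (b + 1 + 2))) % 4 =
            (nn (G ⧸ Z) (2 ^ (b + 1)) + 2 * cc (G ⧸ Z) (2 ^ (b + 1 + 1))) % 4 := h1
        have h3 := hccall (b + 1)
        change nn G (2 ^ (b + 1 + 1)) % 4 = 3 % 4
        by_cases hcyc : IsCyclic (G ⧸ Z)
        · rw [nn_cyclic (G := G ⧸ Z) (by rw [hQ]; exact pow_dvd_pow 2 (by omega)),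
            cc_cyclic (G := G ⧸ Z) (by rw [hQ]; exact pow_dvd_pow 2 (by omega))] at h2
          omega
        · have hQ4 : (commutator (G ⧸ Z)).index = 4 → n = 2 := by
            intro hq
            have h9 : (commutator G).map (QuotientGroup.mk' Z) = commutator (G ⧸ Z) := by
              rw [commutator_def, commutator_def, Subgroup.map_commutator,
                Subgroup.map_top_of_surjective _ (QuotientGroup.mk'_surjective Z)]
            have h10 : (commutator (G ⧸ Z)).index = (commutator G ⊔ Z).index := by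
              rw [← h9, Subgroup.index_map, QuotientGroup.ker_mk',
                MonoidHom.range_eq_top.mpr (QuotientGroup.mk'_surjective Z), Subgroup.index_top,
                mul_one]
            rcases hZc with hZc | hZc
            · rw [hZc, bot_sup_eq, hq] at h10
              have h11 : Z.index = 2 ^ n := hQ
              rw [h11] at h10
              have h12 : 2 ^ 2 = 2 ^ n := by rw [← h10]; norm_num
              exact (Nat.pow_right_injective le_rfl h12).symm
            · rw [sup_eq_left.mpr hZc, hq] at h10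
              exact absurd h10.symm hidx
          obtain ⟨h5, h6⟩ := ih (G ⧸ Z) hQ hcyc hQ4
          have h7 : nn (G ⧸ Z) (2 ^ (b + 1)) % 4 = 3 % 4 := h5 b (by omega)
          have h8 := h6 b
          rw [show b + 1 + 1 = b + 2 by ring] at h2 ⊢
          omega

end CfsgLib.KulH12
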