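import Cfsg.Prelude
import Mathlib

set_option autoImplicit false

/-! Local balance: the abstract argument. -/

namespace CfsgLib.LB27

variable {K : Type*} [Group K]

theorem core_bot {G : Type*} [Group G] {p : ℕ} : Cfsg.pPrimeCore p G = ⊥ ↔ ∀ N : Subgroup G, N.Normal → (Nat.card N).Coprime p → N = ⊥ := by
  unfold Cfsg.pPrimeCore
  rw [sSup_eq_bot]
  exact ⟨fun h N h1 h2 => h N ⟨h1, h2⟩, fun h N hN => h N hN.1 hN.2⟩

theorem mem_cen {G : Type*} [Group G] {x y : G} : y ∈ Subgroup.centralizer {x} ↔ y * x = x * y := by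
  rw [Subgroup.mem_centralizer_iff]
  constructor
  · intro h
    exact (h x rfl).symm
  · rintro h _ rfl
    exact h.symm

theorem mem_inf_cen {G : Type*} [Group G] {A : Subgroup G} {x y : G} : y ∈ A ⊓ Subgroup.centralizer {x} ↔ y ∈ A ∧ y * x = x * y := by
  rw [Subgroup.mem_inf, mem_cen]

/-- fixed points as inner automorphisms -/
theorem mem_eqLocus {x : MulAut K} {k : K} : k ∈ MonoidHom.eqLocus x.toMonoidHom (MonoidHom.id K) ↔ x k = k := Iff.rfl

theorem conj_comm_iff (hcl : ∀ k : K, (∀ k' : K, k * k' = k' * k) → k = 1) {x : MulAut K} {k : K} : MulAut.conj k * x = x * MulAut.conj k ↔ x k = k := by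
  constructor
  · intro h
    have h1 : MulAut.conj (x k) = MulAut.conj k := by
      apply MulEquiv.ext
      intro y
      have h2 := DFunLike.congr_fun h (x⁻¹ y)
      have h3 : k * x (x⁻¹ y) * k⁻¹ = x (k * x⁻¹ y * k⁻¹) := h2
      rw [map_mul, map_mul, map_inv, MulAut.apply_inv_self] at h3
      exact h3.symm
    have h2 : (x k)⁻¹ * k = 1 := by
      apply hcl
      intro k'
      have h3 : x k * k' * (x k)⁻¹ = k * k' * k⁻¹ := DFunLike.congr_fun h1 k'
      calc (x k)⁻¹ * k * k' = (x k)⁻¹ * (k * k' * k⁻¹) * k := by group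
        _ = (x k)⁻¹ * (x k * k' * (x k)⁻¹) * k := by rw [h3]
        _ = k' * ((x k)⁻¹ * k) := by group
    exact (inv_mul_eq_one.1 h2)
  · intro h
    apply MulEquiv.ext
    intro y
    show k * x y * k⁻¹ = x (k * y * k⁻¹)
    rw [map_mul, map_mul, map_inv, h]

/-- the number of fixed points -/
theorem card_inn (hcl : ∀ k : K, (∀ k' : K, k * k' = k' * k) → k = 1) (x : MulAut K) :
    Nat.card ↥((MulAut.conj : K →* MulAut K).range ⊓ Subgroup.centralizer {x}) = Nat.card ↥(MonoidHom.eqLocus x.toMonoidHom (MonoidHom.id K)) := by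
  symm
  have hinj : Function.Injective (MulAut.conj : K →* MulAut K) := by
    rw [injective_iff_map_eq_one]
    intro k hk
    apply hcl
    intro k'
    have : k * k' * k⁻¹ = k' := DFunLike.congr_fun hk k'
    calc k * k' = k * k' * k⁻¹ * k := by group
      _ = k' * k := by rw [this]
  have h1 : (MonoidHom.eqLocus x.toMonoidHom (MonoidHom.id K)).map (MulAut.conj : K →* MulAut K) = (MulAut.conj : K →* MulAut K).range ⊓ Subgroup.centralizer {x} := by
    ext y
    constructor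
    · rintro ⟨k, hk, rfl⟩
      exact mem_inf_cen.2 ⟨⟨k, rfl⟩, (conj_comm_iff hcl).2 hk⟩
    · intro hy
      obtain ⟨⟨k, rfl⟩, hk⟩ := mem_inf_cen.1 hy
      exact ⟨k, (conj_comm_iff hcl).1 hk, rfl⟩
  rw [← h1]
  exact Nat.card_congr (Subgroup.equivMapOfInjective _ _ hinj).toEquiv

/-- the inner part of the centralizer is a normal subgroup -/
theorem core_ne_bot [Finite K] (hcl : ∀ k : K, (∀ k' : K, k * k' = k' * k) → k = 1) {p : ℕ} (x : MulAut K) (A : Subgroup (MulAut K)) (hinn : ∀ k : K, MulAut.conj k ∈ A)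
    (hne : ∃ k : K, x k = k ∧ k ≠ 1) (hcop : Nat.Coprime p (Nat.card ↥(MonoidHom.eqLocus x.toMonoidHom (MonoidHom.id K)))) :
    Cfsg.pPrimeCore p ↥(A ⊓ Subgroup.centralizer {x}) ≠ ⊥ := by
  rw [Ne, core_bot]
  intro h
  obtain ⟨N, hN⟩ : ∃ N : Subgroup ↥(A ⊓ Subgroup.centralizer {x}), N = ((MulAut.conj : K →* MulAut K).range).subgroupOf (A ⊓ Subgroup.centralizer {x}) := ⟨_, rfl⟩
  haveI : ((MulAut.conj : K →* MulAut K).range).Normal := by
    constructor
    rintro _ ⟨k, rfl⟩ g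
    refine ⟨g k, ?_⟩
    apply MulEquiv.ext
    intro y
    show g k * y * (g k)⁻¹ = g (k * (g⁻¹ y) * k⁻¹)
    rw [map_mul, map_mul, map_inv, MulAut.apply_inv_self]
  have hNn : N.Normal := by rw [hN]; infer_instance
  have hle : (MulAut.conj : K →* MulAut K).range ≤ A := by
    rintro _ ⟨k, rfl⟩
    exact hinn k
  have hcard : Nat.card N = Nat.card ↥(MonoidHom.eqLocus x.toMonoidHom (MonoidHom.id K)) := by
    rw [← card_inn hcl x, hN]
    have h1 : Nat.card (((MulAut.conj : K →* MulAut K).range).subgroupOf (A ⊓ Subgroup.centralizer {x})) =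
        Nat.card ↥(((MulAut.conj : K →* MulAut K).range) ⊓ (A ⊓ Subgroup.centralizer {x}) : Subgroup (MulAut K)) := by
      rw [← Subgroup.subgroupOf_map_subtype ((MulAut.conj : K →* MulAut K).range) (A ⊓ Subgroup.centralizer {x})]
      exact Nat.card_congr (Subgroup.equivMapOfInjective _ _ (Subgroup.subtype_injective _)).toEquiv
    rw [h1, ← inf_assoc, inf_eq_left.2 hle]
  have h2 := h N hNn (by rw [hcard]; exact hcop.symm)
  obtain ⟨k, hk, hk1⟩ := hne
  apply hk1
  have hmem : MulAut.conj k ∈ A ⊓ Subgroup.centralizer {x} := mem_inf_cen.2 ⟨hinn k, (conj_comm_iff hcl).2 hk⟩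
  have h3 : (⟨MulAut.conj k, hmem⟩ : ↥(A ⊓ Subgroup.centralizer {x})) ∈ N := by
    rw [hN]
    exact ⟨k, rfl⟩
  rw [h2, Subgroup.mem_bot] at h3
  apply hcl
  intro k'
  have h4 : k * k' * k⁻¹ = k' := DFunLike.congr_fun (congrArg Subtype.val h3) k'
  calc k * k' = k * k' * k⁻¹ * k := by group
    _ = k' * k := by rw [h4]

/-- a normal `p'`-subgroup of the centralizer vanishes -/
theorem core_eq_bot {G : Type*} [Group G] [Finite G] {p : ℕ} [Fact p.Prime] (x : G) (hx : orderOf x = p) (A : Subgroup G) (L : Subgroup G)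
    (hLA : L ≤ A) (hLx : ∀ l ∈ L, l * x = x * l) (hLn : ∀ y : G, y * x = x * y → ∀ l ∈ L, y * l * y⁻¹ ∈ L) (hs : IsSimpleGroup L) (hp : p ∣ Nat.card L)
    (hc : ∀ y : G, y * x = x * y → (∀ l ∈ L, y * l = l * y) → y ∈ Subgroup.zpowers x) :
    Cfsg.pPrimeCore p ↥(A ⊓ Subgroup.centralizer {x}) = ⊥ := by
  rw [core_bot]
  intro N hN hcop
  have hC : ∀ y : ↥(A ⊓ Subgroup.centralizer {x}), (y : G) * x = x * (y : G) := fun y => (mem_inf_cen.1 y.2).2
  have hLC : ∀ l ∈ L, l ∈ A ⊓ Subgroup.centralizer {x} := fun l hl => mem_inf_cen.2 ⟨hLA hl, hLx l hl⟩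
  generalize A ⊓ Subgroup.centralizer {x} = C at *
  -- the intersection with L
  obtain ⟨M, hM⟩ : ∃ M : Subgroup L, M = (N.map C.subtype).subgroupOf L := ⟨_, rfl⟩
  have hMn : M.Normal := by
    constructor
    intro n hn g
    rw [hM, Subgroup.mem_subgroupOf] at hn ⊢
    obtain ⟨n', hn', he⟩ := hn
    refine ⟨⟨g.1, hLC g.1 g.2⟩ * n' * ⟨g.1, hLC g.1 g.2⟩⁻¹, hN.conj_mem n' hn' _, ?_⟩
    rw [map_mul, map_mul, map_inv, he]; rfl
  have hMb : M = ⊥ := by
    rcases hs.eq_bot_or_eq_top_of_normal M hMn with h | h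
    · exact h
    · exfalso
      have h1 : L ≤ N.map C.subtype := by
        rw [hM] at h
        exact Subgroup.subgroupOf_eq_top.1 h
      have h2 : Nat.card L ∣ Nat.card N := by
        have h3 := Subgroup.card_dvd_of_le h1
        have h4 : Nat.card N = Nat.card (N.map C.subtype) := Nat.card_congr (Subgroup.equivMapOfInjective N _ (Subgroup.subtype_injective _)).toEquiv
        rw [h4]
        exact h3
      have h4 : p ∣ Nat.card N := hp.trans h2
      have h5 := Nat.dvd_gcd h4 (dvd_refl p)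
      rw [hcop] at h5
      exact (Fact.out : p.Prime).one_lt.ne' (Nat.dvd_one.1 h5)
  rw [Subgroup.eq_bot_iff_forall]
  intro y hy
  have hcomm : ∀ l ∈ L, (y : G) * l = l * (y : G) := by
    intro l hl
    have h1 : (y : G) * l * (y : G)⁻¹ * l⁻¹ ∈ L := L.mul_mem (hLn y (hC y) l hl) (L.inv_mem hl)
    have h2 : (⟨_, h1⟩ : L) ∈ M := by
      rw [hM, Subgroup.mem_subgroupOf]
      refine ⟨y * (⟨l, hLC l hl⟩ * y⁻¹ * ⟨l, hLC l hl⟩⁻¹), N.mul_mem hy (hN.conj_mem _ (N.inv_mem hy) _), ?_⟩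
      show (y : G) * (l * (y : G)⁻¹ * l⁻¹) = (y : G) * l * (y : G)⁻¹ * l⁻¹
      group
    rw [hMb, Subgroup.mem_bot] at h2
    have h3 : (y : G) * l * (y : G)⁻¹ * l⁻¹ = 1 := congrArg Subtype.val h2
    calc (y : G) * l = ((y : G) * l * (y : G)⁻¹ * l⁻¹) * (l * y) := by group
      _ = l * y := by rw [h3, one_mul]
  have h1 := hc y (hC y) hcomm
  have h2 : orderOf (y : G) ∣ p := by rw [← hx]; exact orderOf_dvd_of_mem_zpowers h1
  have h3 : orderOf y ∣ p := by rw [← Subgroup.orderOf_coe]; exact h2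
  have h4 : orderOf y ∣ Nat.card N := by
    have := orderOf_dvd_natCard (⟨y, hy⟩ : N)
    rwa [Subgroup.orderOf_mk] at this
  have h5 : orderOf y ∣ 1 := by
    have := Nat.dvd_gcd h4 h3
    rwa [hcop] at this
  exact orderOf_eq_one_iff.1 (Nat.dvd_one.1 h5)

/-- local balance for an automorphism whose centralizer has a simple normal subgroup with small centralizer -/
theorem lb_main [Finite K] {p : ℕ} [Fact p.Prime] (hcl : ∀ k : K, (∀ k' : K, k * k' = k' * k) → k = 1) (x : MulAut K) (hx : orderOf x = p) (A : Subgroup (MulAut K))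
    (hinn : ∀ k : K, MulAut.conj k ∈ A) (L : Subgroup (MulAut K)) (hLi : ∀ l ∈ L, ∃ k, MulAut.conj k = l)
    (hLx : ∀ l ∈ L, l * x = x * l) (hLn : ∀ y : MulAut K, y * x = x * y → ∀ l ∈ L, y * l * y⁻¹ ∈ L) (hs : IsSimpleGroup L)
    (hp : p ∣ Nat.card ↥((MulAut.conj : K →* MulAut K).range ⊓ Subgroup.centralizer {x}) → p ∣ Nat.card L)
    (hc : ∀ y : MulAut K, y * x = x * y → (∀ l ∈ L, y * l = l * y) → y ∈ Subgroup.zpowers x) :
    Cfsg.pPrimeCore p ↥(A ⊓ Subgroup.centralizer {x}) ≠ ⊥ ↔ Nat.Coprime p (Nat.card ↥(MonoidHom.eqLocus x.toMonoidHom (MonoidHom.id K))) := by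
  constructor
  · intro h
    rw [Nat.Prime.coprime_iff_not_dvd (Fact.out : p.Prime)]
    intro hd
    apply h
    haveI : Finite (MulAut K) := Finite.of_injective (fun (e : MulAut K) => (e : K → K)) (fun a b h => MulEquiv.ext (fun k => congrFun h k))
    apply core_eq_bot x hx A L _ hLx hLn hs (hp (by rw [card_inn hcl]; exact hd)) hc
    intro l hl
    obtain ⟨k, rfl⟩ := hLi l hl
    exact hinn k
  · intro h
    refine core_ne_bot hcl x A hinn ?_ h
    haveI := hs.toNontrivial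
    obtain ⟨⟨l, hl⟩, hl1⟩ := exists_ne (1 : L)
    obtain ⟨k, rfl⟩ := hLi l hl
    refine ⟨k, (conj_comm_iff hcl).1 (hLx _ hl), ?_⟩
    rintro rfl
    apply hl1
    exact Subtype.ext (map_one _)

/-- transport along an isomorphism -/
theorem lb_transport {K' : Type*} [Group K'] {p : ℕ} (e : K ≃* K') (x : MulAut K) (A : Subgroup (MulAut K)) (hinn : ∀ k : K, MulAut.conj k ∈ A) :
    ∃ A' : Subgroup (MulAut K'), (∀ k : K', MulAut.conj k ∈ A') ∧
      (Cfsg.pPrimeCore p ↥(A' ⊓ Subgroup.centralizer {MulAut.congr e x}) ≠ ⊥ ↔ Cfsg.pPrimeCore p ↥(A ⊓ Subgroup.centralizer {x}) ≠ ⊥) ∧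
      Nat.card ↥(MonoidHom.eqLocus (MulAut.congr e x).toMonoidHom (MonoidHom.id K')) = Nat.card ↥(MonoidHom.eqLocus x.toMonoidHom (MonoidHom.id K)) := by
  refine ⟨A.map (MulAut.congr e).toMonoidHom, ?_, ?_, ?_⟩
  · intro k
    refine ⟨MulAut.conj (e.symm k), hinn _, ?_⟩
    apply MulEquiv.ext
    intro y
    show e (e.symm k * e.symm y * (e.symm k)⁻¹) = k * y * k⁻¹
    rw [map_mul, map_mul, map_inv, e.apply_symm_apply, e.apply_symm_apply]
  · have h1 : A.map (MulAut.congr e).toMonoidHom ⊓ Subgroup.centralizer {MulAut.congr e x} = (A ⊓ Subgroup.centralizer {x}).map (MulAut.congr e).toMonoidHom := by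
      ext y
      constructor
      · intro hy
        obtain ⟨⟨z, hz, rfl⟩, h⟩ := mem_inf_cen.1 hy
        refine ⟨z, mem_inf_cen.2 ⟨hz, ?_⟩, rfl⟩
        have h2 : MulAut.congr e (z * x) = MulAut.congr e (x * z) := by rw [map_mul, map_mul]; exact h
        exact (MulAut.congr e).injective h2
      · rintro ⟨z, hz, rfl⟩
        obtain ⟨hz1, hz2⟩ := mem_inf_cen.1 hz
        refine mem_inf_cen.2 ⟨⟨z, hz1, rfl⟩, ?_⟩
        show MulAut.congr e z * MulAut.congr e x = MulAut.congr e x * MulAut.congr e z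
        rw [← map_mul, ← map_mul, hz2]
    rw [h1]
    obtain ⟨f, -⟩ : ∃ f : ↥(A ⊓ Subgroup.centralizer {x}) ≃* ↥((A ⊓ Subgroup.centralizer {x}).map (MulAut.congr e).toMonoidHom), True :=
      ⟨Subgroup.equivMapOfInjective _ _ (MulAut.congr e).injective, trivial⟩
    generalize A ⊓ Subgroup.centralizer {x} = C at f
    generalize C.map (MulAut.congr e).toMonoidHom = C' at f
    rw [not_iff_not, core_bot, core_bot]
    constructor
    · intro h N hN hc
      have h3 := h (N.map f.toMonoidHom) (hN.map _ f.surjective) (by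
        rwa [← Nat.card_congr (Subgroup.equivMapOfInjective N f.toMonoidHom f.injective).toEquiv])
      exact (Subgroup.map_eq_bot_iff_of_injective N f.injective).1 h3
    · intro h N hN hc
      have h3 := h (N.map f.symm.toMonoidHom) (hN.map _ f.symm.surjective) (by
        rwa [← Nat.card_congr (Subgroup.equivMapOfInjective N f.symm.toMonoidHom f.symm.injective).toEquiv])
      exact (Subgroup.map_eq_bot_iff_of_injective N f.symm.injective).1 h3
  · symm
    refine Nat.card_congr ⟨fun k => ⟨e k.1, ?_⟩, fun k => ⟨e.symm k.1, ?_⟩, fun k => Subtype.ext (e.symm_apply_apply _), fun k => Subtype.ext (e.apply_symm_apply _)⟩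
    · show e (x (e.symm (e k.1))) = e k.1
      rw [e.symm_apply_apply]
      exact congrArg e k.2
    · show x (e.symm k.1) = e.symm k.1
      apply e.injective
      rw [e.apply_symm_apply]
      exact k.2

end CfsgLib.LB27
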