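import Cfsg.Agent.LibLB27a
import Cfsg.Agent.LibEps27e
import Cfsg.Agent.LibAutPSL27m

set_option autoImplicit false

/-! Local balance for field automorphisms of orthogonal groups. -/

namespace CfsgLib.LB27

open Cfsg.Agent.H22 CfsgLib.Semi27 CfsgLib.Lift27 CfsgLib.RhoO27 CfsgLib.AutO27 CfsgLib.Spinor27 CfsgLib.Even27 CfsgLib.Min27 CfsgLib.H9027 CfsgLib.QForm27 CfsgLib.Desc27 CfsgLib.Eps27 Module Matrix

universe u

section field
variable {F : Type u} [Field F] [Finite F]

theorem mem_zpowers_of_fix {σ τ : F ≃+* F} (h : ∀ a : fixF σ, τ (a : F) = a) : τ ∈ Subgroup.zpowers σ := by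
  haveI : Finite (F ≃+* F) := Finite.of_injective (fun τ : F ≃+* F => (τ : F → F)) DFunLike.coe_injective
  have h1 : ∀ a : FixedPoints.subfield (Subgroup.zpowers σ) F, τ (a : F) = a := by
    intro a
    exact h ⟨a, a.2 ⟨σ, Subgroup.mem_zpowers σ⟩⟩
  obtain ⟨⟨τ', hτ'⟩, h2⟩ := (FixedPoints.toAlgHom_bijective (Subgroup.zpowers σ) F).surjective
    { toFun := τ, map_one' := map_one τ, map_mul' := map_mul τ, map_zero' := map_zero τ, map_add' := map_add τ, commutes' := fun a => h1 a }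
  have h3 : τ' = τ := by
    ext a
    exact DFunLike.congr_fun h2 a
  rw [← h3]
  exact hτ'

/-- restriction of a commuting field automorphism to the fixed field -/
def resF (σ τ : F ≃+* F) : fixF σ ≃+* fixF σ where
  toFun a := ⟨τ a, by
    rw [mem_fixF]
    have := DFunLike.congr_fun (CfsgLib.AutPSL27.gal_comm σ τ) (a : F)
    show (σ * τ) (a : F) = τ a
    rw [this]
    exact congrArg τ a.2⟩
  invFun a := ⟨τ.symm a, by
    rw [mem_fixF]
    have := DFunLike.congr_fun (CfsgLib.AutPSL27.gal_comm σ τ⁻¹) (a : F)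
    show (σ * τ⁻¹) (a : F) = τ⁻¹ a
    rw [this]
    exact congrArg τ.symm a.2⟩
  left_inv a := Subtype.ext (τ.symm_apply_apply _)
  right_inv a := Subtype.ext (τ.apply_symm_apply _)
  map_mul' a b := Subtype.ext (map_mul τ _ _)
  map_add' a b := Subtype.ext (map_add τ _ _)

theorem resF_coe (σ τ : F ≃+* F) (a : fixF σ) : ((resF σ τ a : fixF σ) : F) = τ a := rfl

end field

theorem commutator_map_le {A B : Type*} [Group A] [Group B] (f : A →* B) : (commutator A).map f ≤ commutator B := by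
  rw [commutator_def, Subgroup.map_commutator]
  exact Subgroup.commutator_mono le_top le_top

section cen
variable {F : Type u} [Field F] [Fintype F] {ι : Type} [Fintype ι] [DecidableEq ι]
variable {Q : QuadraticForm F (ι → F)} {e f : Fin 3 → (ι → F)} {u : ι → F}

theorem omega_center (hG : Gd Q e f u) (s : Cfsg.Omega F ⇑Q) : s ∈ Subgroup.center (Cfsg.Omega F ⇑Q) ↔ ∃ a : Fˣ, ((s : Cfsg.isometryGroup F ⇑Q) : GL ι F) = scal a := by
  constructor
  · intro hs
    have h1 : (QuotientGroup.mk s : Cfsg.POmega F ⇑Q) = 1 := (QuotientGroup.eq_one_iff s).2 hs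
    have h2 : R Q (jI Q s.1) = 1 := by rw [← conj_mk, h1, map_one]
    exact ((R_ker' hG _).1 h2).2
  · rintro ⟨a, ha⟩
    rw [Subgroup.mem_center_iff]
    intro t
    apply Subtype.ext
    apply Subtype.ext
    rw [Subgroup.coe_mul, Subgroup.coe_mul, Subgroup.coe_mul, Subgroup.coe_mul, ha, scal_comm]

theorem pomega_centerless (hG : Gd Q e f u) (k : Cfsg.POmega F ⇑Q) (h : ∀ k', k * k' = k' * k) : k = 1 := by
  obtain ⟨s, rfl⟩ := QuotientGroup.mk_surjective k
  refine (QuotientGroup.eq_one_iff s).2 ((omega_center hG s).2 ?_)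
  have h2 : R Q (jI Q s.1) = 1 := by
    rw [← conj_mk]
    apply MulEquiv.ext
    intro y
    show (QuotientGroup.mk s : Cfsg.POmega F ⇑Q) * y * (QuotientGroup.mk s : Cfsg.POmega F ⇑Q)⁻¹ = y
    rw [h, mul_inv_cancel_right]
  exact ((R_ker' hG _).1 h2).2

theorem gd_simple (hG : Gd Q e f u) : IsSimpleGroup (Cfsg.POmega F ⇑Q) := pomega_simple Q hG.nd hG.hs hG.hF

/-- the squares of isometries lie in `Ω` -/
theorem sq_omega (hG : Gd Q e f u) (s : Cfsg.isometryGroup F ⇑Q) : s * s ∈ Cfsg.Omega F ⇑Q := by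
  have key : ∀ s ∈ Subgroup.closure {g : Cfsg.isometryGroup F ⇑Q | ∃ v, ∃ hv : Q v ≠ 0, g = rfM Q v hv}, Abelianization.of s * Abelianization.of s = 1 := by
    intro s hs
    induction hs using Subgroup.closure_induction with
    | mem x hx =>
      obtain ⟨v, hv, rfl⟩ := hx
      rw [← map_mul]
      have : rfM Q v hv * rfM Q v hv = 1 := by
        unfold rfM
        rw [← map_mul]
        rw [oRefl_mul_self, map_one]
      rw [this, map_one]
    | one => rw [map_one, one_mul]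
    | mul x y _ _ hx hy =>
      rw [map_mul, mul_mul_mul_comm, hx, hy, one_mul]
    | inv x _ hx =>
      rw [map_inv, ← _root_.mul_inv_rev, hx, inv_one]
  have h1 := key s (by rw [closure_rfM hG.nd hG.hF]; trivial)
  rw [← map_mul, ← MonoidHom.mem_ker, Abelianization.ker_of] at h1
  exact h1

/-- similarities modulo those inducing inner automorphisms -/
theorem quot_two (hG : Gd Q e f u) (hx : ∃ x, Q x ≠ 0) : IsPGroup 2 (GOs Q ⧸ KI Q) := by
  intro z
  obtain ⟨g, rfl⟩ := QuotientGroup.mk_surjective z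
  refine ⟨2, ?_⟩
  rw [← QuotientGroup.mk_pow]
  refine (QuotientGroup.eq_one_iff _).2 ?_
  obtain ⟨c, hc⟩ : ∃ c : Fˣ, ∀ v, Q (((g : GL ι F) : Matrix ι ι F) *ᵥ v) = c * Q v := g.2
  have hiso : (scal c)⁻¹ * ((g : GL ι F) * (g : GL ι F)) ∈ Cfsg.isometryGroup F ⇑Q := by
    rw [mem_isometryGroup]
    intro v
    have e1 : (((scal c)⁻¹ * ((g : GL ι F) * (g : GL ι F)) : GL ι F) : Matrix ι ι F) *ᵥ v = ((c⁻¹ : Fˣ) : F) • (((g : GL ι F) : Matrix ι ι F) *ᵥ (((g : GL ι F) : Matrix ι ι F) *ᵥ v)) := by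
      rw [← map_inv, scal_mul_mulVec, Units.val_mul, mulVec_mulVec]
    rw [e1, qsmul, hc, hc, Units.val_inv_eq_inv_val]
    have := c.ne_zero
    field_simp
  obtain ⟨s, hs⟩ : ∃ s : Cfsg.isometryGroup F ⇑Q, (s : GL ι F) = (scal c)⁻¹ * ((g : GL ι F) * (g : GL ι F)) := ⟨⟨_, hiso⟩, rfl⟩
  have h1 : (g : GL ι F) * (g : GL ι F) = scal c * (s : GL ι F) := by rw [hs, mul_inv_cancel_left]
  rw [mem_KI hG]
  refine ⟨c * c, ⟨s * s, sq_omega hG s⟩, ?_⟩
  have h2 : ((g ^ (2 ^ 2) : GOs Q) : GL ι F) = (g : GL ι F) * (g : GL ι F) * ((g : GL ι F) * (g : GL ι F)) := by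
    rw [Subgroup.coe_pow]
    show (g : GL ι F) ^ 4 = _
    rw [pow_succ, pow_succ, pow_two, mul_assoc ((g : GL ι F) * (g : GL ι F))]
  rw [h2, h1]
  show scal c * (s : GL ι F) * (scal c * (s : GL ι F)) = scal (c * c) * ((s : GL ι F) * (s : GL ι F))
  have hcc : (scal (c * c) : GL ι F) = scal c * scal c := by rw [← map_mul]
  rw [hcc]
  calc scal c * (s : GL ι F) * (scal c * (s : GL ι F)) = scal c * ((s : GL ι F) * scal c) * (s : GL ι F) := by group
    _ = scal c * (scal c * (s : GL ι F)) * (s : GL ι F) := by rw [show (s : GL ι F) * scal c = scal c * (s : GL ι F) from (scal_comm _ _).symm]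
    _ = _ := by group

/-- the order is even in odd characteristic -/
theorem two_dvd (hG : Gd Q e f u) (h2 : (2 : F) ≠ 0) : 2 ∣ Nat.card (Cfsg.POmega F ⇑Q) := by
  obtain ⟨v, hv⟩ : ∃ v : ι → F, v = e 0 + f 0 := ⟨_, rfl⟩
  obtain ⟨w, hw⟩ : ∃ w : ι → F, w = e 1 + f 1 := ⟨_, rfl⟩
  have hfr := hG.fr
  have ef' : ∀ i j, QuadraticMap.polar Q (f i) (e j) = QuadraticMap.polar Q (e j) (f i) := fun i j => QuadraticMap.polar_comm _ _ _
  have hQv : Q v = 1 := by
    have : Q v = QuadraticMap.polar Q (e 0) (f 0) + Q (e 0) + Q (f 0) := by rw [hv]; unfold QuadraticMap.polar; ring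
    rw [this, hfr.ef, hfr.qe, hfr.qf]; ring
  have hQw : Q w = 1 := by
    have : Q w = QuadraticMap.polar Q (e 1) (f 1) + Q (e 1) + Q (f 1) := by rw [hw]; unfold QuadraticMap.polar; ring
    rw [this, hfr.ef, hfr.qe, hfr.qf]; ring
  have hB : QuadraticMap.polar Q v w = 0 := by
    rw [hv, hw, QuadraticMap.polar_add_left, QuadraticMap.polar_add_right, QuadraticMap.polar_add_right, hfr.ee, hfr.ff, hfr.ef' 0 1 (by decide), ef', hfr.ef' 1 0 (by decide)]
    ring
  have hB' : QuadraticMap.polar Q w v = 0 := by rw [QuadraticMap.polar_comm]; exact hB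
  have hev : QuadraticMap.polar Q (e 2) v = 0 := by
    rw [hv, QuadraticMap.polar_add_right, hfr.ee, hfr.ef' 2 0 (by decide)]; ring
  have hew : QuadraticMap.polar Q (e 2) w = 0 := by
    rw [hw, QuadraticMap.polar_add_right, hfr.ee, hfr.ef' 2 1 (by decide)]; ring
  have hv0 : Q v ≠ 0 := by rw [hQv]; exact one_ne_zero
  have hw0 : Q w ≠ 0 := by rw [hQw]; exact one_ne_zero
  have hvv : QuadraticMap.polar Q v v = 2 := by
    rw [QuadraticMap.polar_self, hQv]; simp
  have hww : QuadraticMap.polar Q w w = 2 := by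
    rw [QuadraticMap.polar_self, hQw]; simp
  obtain ⟨s, hs⟩ : ∃ s : Cfsg.isometryGroup F ⇑Q, s = rfM Q v hv0 * rfM Q w hw0 := ⟨_, rfl⟩
  have hsx : ∀ x, ((s : GL ι F) : Matrix ι ι F) *ᵥ x = x - QuadraticMap.polar Q x w • w - QuadraticMap.polar Q x v • v := by
    intro x
    rw [hs, Subgroup.coe_mul, Units.val_mul, ← mulVec_mulVec, rfM_mulVec, rfM_mulVec, hQv, hQw, inv_one, one_mul, one_mul,
      QuadraticMap.polar_sub_right, QuadraticMap.polar_smul_right, hB, smul_zero, sub_zero, QuadraticMap.polar_comm _ w x, QuadraticMap.polar_comm _ v x]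
  have hsO : s ∈ Cfsg.Omega F ⇑Q := by
    rw [mem_omega_M h2 hG.nd (by have := hG.h5; omega)]
    constructor
    · rw [hs, Subgroup.coe_mul, map_mul, det_rfM, det_rfM]; simp
    · rw [hs, map_mul, spinM_rfM, spinM_rfM, hQv, hQw, chi_one]; rfl
  have hss : s * s = 1 := by
    apply Subtype.ext
    apply gl_ext
    intro x
    rw [Subgroup.coe_mul, Units.val_mul, ← mulVec_mulVec, hsx, hsx]
    simp only [QuadraticMap.polar_sub_left, QuadraticMap.polar_smul_left, hB, hB', hvv, hww, smul_eq_mul, mul_zero, sub_zero]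
    rw [Subgroup.coe_one, Units.val_one, one_mulVec]
    module
  have hne : (QuotientGroup.mk (⟨s, hsO⟩ : Cfsg.Omega F ⇑Q) : Cfsg.POmega F ⇑Q) ≠ 1 := by
    intro h1
    obtain ⟨a, ha⟩ := (omega_center hG ⟨s, hsO⟩).1 ((QuotientGroup.eq_one_iff _).1 h1)
    have h3 := hsx (e 2)
    have h4 := hsx v
    have ha' : (s : GL ι F) = scal a := ha
    rw [ha', scal_mulVec, hev, hew, zero_smul, zero_smul, sub_zero, sub_zero] at h3
    rw [ha', scal_mulVec, hB, hvv, zero_smul, sub_zero] at h4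
    have he2 : e 2 ≠ 0 := by
      intro h0
      have := hfr.ef 2
      rw [h0, QuadraticMap.polar_zero_left] at this
      exact zero_ne_one this
    have ha1 : (a : F) = 1 := by
      have h5 : ((a : F) - 1) • e 2 = 0 := by rw [sub_smul, h3, one_smul, sub_self]
      rcases smul_eq_zero.1 h5 with h6 | h6
      · exact sub_eq_zero.1 h6
      · exact absurd h6 he2
    rw [ha1, one_smul] at h4
    have h7 : (2 : F) • v = 0 := by
      have h8 : v - (2 : F) • v = v := h4.symm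
      have h9 : (2 : F) • v = v - (v - (2 : F) • v) := by abel
      rw [h9, h8, sub_self]
    rcases smul_eq_zero.1 h7 with h8 | h8
    · exact h2 h8
    · rw [h8, map_zero] at hQv
      exact zero_ne_one hQv
  have hord : orderOf (QuotientGroup.mk (⟨s, hsO⟩ : Cfsg.Omega F ⇑Q) : Cfsg.POmega F ⇑Q) = 2 := by
    haveI : Fact (Nat.Prime 2) := ⟨Nat.prime_two⟩
    refine orderOf_eq_prime ?_ hne
    rw [pow_two, ← QuotientGroup.mk_mul]
    have : (⟨s, hsO⟩ : Cfsg.Omega F ⇑Q) * ⟨s, hsO⟩ = 1 := Subtype.ext hss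
    rw [this]; rfl
  rw [← hord]
  exact orderOf_dvd_natCard _

end cen

end CfsgLib.LB27
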