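import Cfsg.Agent.LibLB27b

set_option autoImplicit false

/-! Local balance for field automorphisms of orthogonal groups: main argument. -/

namespace CfsgLib.LB27

open CfsgLib.AutO27 hiding R
open Cfsg.Agent.H22 CfsgLib.Semi27 CfsgLib.Lift27 CfsgLib.RhoO27 CfsgLib.Spinor27 CfsgLib.Even27 CfsgLib.Min27 CfsgLib.H9027 CfsgLib.QForm27 CfsgLib.Desc27 CfsgLib.Eps27 Module Matrix

universe u

section lift
variable {F : Type u} [Field F] [Fintype F] {ι : Type} [Fintype ι] [DecidableEq ι]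
variable {Q : QuadraticForm F (ι → F)} {σ : F ≃+* F} {Q₀ : QuadraticForm (fixF σ) (ι → fixF σ)}
variable {e f : Fin 3 → (ι → F)} {u : ι → F} {e₀ f₀ : Fin 3 → (ι → fixF σ)} {u₀ : ι → fixF σ}

/-- rational elements of `Ω` -/
noncomputable def liftO (hj : ∀ x, Q ((fixF σ).subtype ∘ x) = (fixF σ).subtype (Q₀ x)) : Cfsg.Omega (fixF σ) ⇑Q₀ →* Cfsg.Omega F ⇑Q :=
  ((liftI (fixF σ).subtype hj).comp (Cfsg.Omega (fixF σ) ⇑Q₀).subtype).codRestrict (Cfsg.Omega F ⇑Q) fun s =>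
    commutator_map_le (liftI (fixF σ).subtype hj) ⟨s.1, s.2, rfl⟩

theorem liftO_coe (hj : ∀ x, Q ((fixF σ).subtype ∘ x) = (fixF σ).subtype (Q₀ x)) (s : Cfsg.Omega (fixF σ) ⇑Q₀) :
    (((liftO hj s : Cfsg.Omega F ⇑Q) : Cfsg.isometryGroup F ⇑Q) : GL ι F) = Matrix.GeneralLinearGroup.map (fixF σ).subtype ((s : Cfsg.isometryGroup (fixF σ) ⇑Q₀) : GL ι (fixF σ)) := rfl

/-- rational inner automorphisms -/
noncomputable def lam0 (hj : ∀ x, Q ((fixF σ).subtype ∘ x) = (fixF σ).subtype (Q₀ x)) : Cfsg.Omega (fixF σ) ⇑Q₀ →* MulAut (Cfsg.POmega F ⇑Q) :=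
  (R Q).comp ((jI Q).comp ((Cfsg.Omega F ⇑Q).subtype.comp (liftO hj)))

theorem lam0_apply (hj : ∀ x, Q ((fixF σ).subtype ∘ x) = (fixF σ).subtype (Q₀ x)) (s : Cfsg.Omega (fixF σ) ⇑Q₀) : lam0 hj s = R Q (jI Q (liftO hj s).1) := rfl

theorem lam0_conj (hj : ∀ x, Q ((fixF σ).subtype ∘ x) = (fixF σ).subtype (Q₀ x)) (s : Cfsg.Omega (fixF σ) ⇑Q₀) :
    lam0 hj s = MulAut.conj (QuotientGroup.mk (liftO hj s) : Cfsg.POmega F ⇑Q) := (conj_mk _).symm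

theorem gl_map_inj {g h : GL ι (fixF σ)} (he : Matrix.GeneralLinearGroup.map (fixF σ).subtype g = Matrix.GeneralLinearGroup.map (fixF σ).subtype h) : g = h := by
  apply Units.ext
  ext i k
  exact congrArg (fun x : GL ι F => (x : Matrix ι ι F) i k) he

theorem scal_of_map [Nonempty ι] {g : GL ι (fixF σ)} {a : Fˣ} (he : Matrix.GeneralLinearGroup.map (fixF σ).subtype g = scal a) : ∃ a₀ : (fixF σ)ˣ, g = scal a₀ := by
  obtain ⟨i⟩ := ‹Nonempty ι›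
  have hent : ∀ j k, ((((g : GL ι (fixF σ)) : Matrix ι ι (fixF σ)) j k : fixF σ) : F) = (Matrix.scalar ι (a : F)) j k := by
    intro j k
    exact congrArg (fun x : GL ι F => (x : Matrix ι ι F) j k) he
  have h1 : ((((g : GL ι (fixF σ)) : Matrix ι ι (fixF σ)) i i : fixF σ) : F) = a := by
    rw [hent, Matrix.scalar_apply, Matrix.diagonal_apply_eq]
  obtain ⟨b, hb⟩ : ∃ b : fixF σ, (b : F) = a := ⟨_, h1⟩
  have hb0 : b ≠ 0 := by
    rintro rfl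
    exact a.ne_zero hb.symm
  refine ⟨Units.mk0 b hb0, ?_⟩
  apply Units.ext
  ext j k
  rw [hent]
  show _ = (((Matrix.scalar ι b) j k : fixF σ) : F)
  rw [Matrix.scalar_apply, Matrix.scalar_apply]
  by_cases hjk : j = k
  · subst hjk
    rw [Matrix.diagonal_apply_eq, Matrix.diagonal_apply_eq, hb]
  · rw [Matrix.diagonal_apply_ne _ hjk, Matrix.diagonal_apply_ne _ hjk]; rfl

theorem map_scal (a : (fixF σ)ˣ) : Matrix.GeneralLinearGroup.map (n := ι) (fixF σ).subtype (scal a) = scal (Units.map ((fixF σ).subtype : fixF σ →* F) a) := by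
  apply Units.ext
  show (Matrix.scalar ι (a : fixF σ)).map (fixF σ).subtype = Matrix.scalar ι ((fixF σ).subtype (a : fixF σ))
  rw [Matrix.scalar_apply, Matrix.scalar_apply, Matrix.diagonal_map (map_zero _)]

theorem ne_of_gd (hG : Gd Q e f u) : Nonempty ι := by
  have h1 := hG.h5
  rw [finrank_fintype_fun_eq_card] at h1
  exact Fintype.card_pos_iff.1 (by omega)

theorem lam0_ker [Fintype (fixF σ)] (hG : Gd Q e f u) (hG₀ : Gd Q₀ e₀ f₀ u₀) (hj : ∀ x, Q ((fixF σ).subtype ∘ x) = (fixF σ).subtype (Q₀ x)) :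
    (lam0 hj).ker = Subgroup.center (Cfsg.Omega (fixF σ) ⇑Q₀) := by
  haveI := ne_of_gd hG
  ext s
  rw [MonoidHom.mem_ker, lam0_apply, R_ker' hG, omega_center hG₀]
  constructor
  · rintro ⟨-, a, ha⟩
    exact scal_of_map (a := a) ha
  · rintro ⟨a, ha⟩
    refine ⟨rfl, Units.map ((fixF σ).subtype : fixF σ →* F) a, ?_⟩
    rw [jI_left, liftO_coe, ha, map_scal]

theorem lam_equiv [Fintype (fixF σ)] (hG : Gd Q e f u) (hG₀ : Gd Q₀ e₀ f₀ u₀) (hj : ∀ x, Q ((fixF σ).subtype ∘ x) = (fixF σ).subtype (Q₀ x)) :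
    Nonempty (Cfsg.POmega (fixF σ) ⇑Q₀ ≃* (lam0 hj).range) :=
  ⟨(QuotientGroup.quotientMulEquivOfEq (lam0_ker hG hG₀ hj)).symm.trans (QuotientGroup.quotientKerEquivRange (lam0 hj))⟩

/-- elements commuting with the standard field automorphism -/
theorem commuting (hG : Good Q e f u) (hx₀ : ∃ x, Q₀ x ≠ 0) (hj : ∀ x, Q ((fixF σ).subtype ∘ x) = (fixF σ).subtype (Q₀ x)) (hσ : (⟨1, σ⟩ : GamL ι F) ∈ SP Q)
    (y : MulAut (Cfsg.POmega F ⇑Q)) (hy : y * ph hσ = ph hσ * y) :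
    ∃ (τ : F ≃+* F) (g₀ : GL ι (fixF σ)) (h₁ : (⟨Matrix.GeneralLinearGroup.map (fixF σ).subtype g₀, τ⟩ : GamL ι F) ∈ SP Q) (h₀ : (⟨g₀, resF σ τ⟩ : GamL ι (fixF σ)) ∈ SP Q₀),
      y = R Q ⟨_, h₁⟩ := by
  haveI := ne_of_gd hG.gd
  obtain ⟨⟨⟨g, τ⟩, hY⟩, rfl⟩ := R_surj hG y
  unfold ph at hy
  rw [← map_mul, ← map_mul, R_eq_iff' hG.gd] at hy
  obtain ⟨-, a, ha⟩ := hy
  have h1 : g * gm τ 1 = scal a * (1 * gm σ g) := ha
  rw [map_one, mul_one, one_mul] at h1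
  have h2 : gm σ g = scal a⁻¹ * g := by
    have h3 : (scal a⁻¹ : GL ι F) = (scal a)⁻¹ := map_inv _ _
    rw [h3]
    exact (inv_mul_eq_of_eq_mul h1).symm
  obtain ⟨b, h, hh, hgh⟩ := fixed_multiple h2
  obtain ⟨g₀, rfl⟩ := fixed_gl hh
  have hY' : (⟨Matrix.GeneralLinearGroup.map (fixF σ).subtype g₀, τ⟩ : GamL ι F) ∈ SP Q := by
    have e1 : (⟨Matrix.GeneralLinearGroup.map (fixF σ).subtype g₀, τ⟩ : GamL ι F) = (SemidirectProduct.inl (scal b))⁻¹ * ⟨g, τ⟩ := by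
      apply SemidirectProduct.ext
      · show Matrix.GeneralLinearGroup.map (fixF σ).subtype g₀ = (gmA 1)⁻¹ (scal b)⁻¹ * gmA (1⁻¹) g
        rw [map_one, inv_one, inv_one, map_one]
        show Matrix.GeneralLinearGroup.map (fixF σ).subtype g₀ = (scal b)⁻¹ * g
        rw [hgh, inv_mul_cancel_left]
      · show τ = 1⁻¹ * τ
        rw [inv_one, one_mul]
    rw [e1]
    exact mul_mem (inv_mem (inl_mem_iff.2 (scal_mem b))) hY
  refine ⟨τ, g₀, hY', ?_, ?_⟩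
  · obtain ⟨c, hc⟩ := mem_SP.1 hY'
    obtain ⟨x0, hx0⟩ := hx₀
    have hact : ∀ x : ι → fixF σ, act (⟨Matrix.GeneralLinearGroup.map (fixF σ).subtype g₀, τ⟩ : GamL ι F) ((fixF σ).subtype ∘ x) = (fixF σ).subtype ∘ (act (⟨g₀, resF σ τ⟩ : GamL ι (fixF σ)) x) := by
      intro x
      exact map_mulVec' (fixF σ).subtype _ (resF σ τ ∘ x)
    have h3 : ∀ x : ι → fixF σ, (fixF σ).subtype (Q₀ (act (⟨g₀, resF σ τ⟩ : GamL ι (fixF σ)) x)) = c * (fixF σ).subtype (resF σ τ (Q₀ x)) := by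
      intro x
      rw [← hj, ← hact, hc, hj]; rfl
    have h4 : resF σ τ (Q₀ x0) ≠ 0 := (map_ne_zero_iff _ (resF σ τ).injective).2 hx0
    obtain ⟨c₀, hc₀⟩ : ∃ c₀ : fixF σ, (fixF σ).subtype c₀ = c := ⟨Q₀ (act (⟨g₀, resF σ τ⟩ : GamL ι (fixF σ)) x0) / resF σ τ (Q₀ x0), by
      rw [map_div₀, h3]
      exact mul_div_cancel_right₀ _ ((map_ne_zero_iff _ (fixF σ).subtype.injective).2 h4)⟩
    have hc00 : c₀ ≠ 0 := by
      rintro rfl
      rw [map_zero] at hc₀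
      exact c.ne_zero hc₀.symm
    refine mem_SP.2 ⟨Units.mk0 c₀ hc00, fun x => (fixF σ).subtype.injective ?_⟩
    rw [h3, ← hc₀, ← map_mul]; rfl
  · rw [R_eq_iff' hG.gd]
    exact ⟨rfl, b, hgh⟩

theorem conj_lam0 (hj : ∀ x, Q ((fixF σ).subtype ∘ x) = (fixF σ).subtype (Q₀ x)) {τ : F ≃+* F} {g₀ : GL ι (fixF σ)}
    (h₁ : (⟨Matrix.GeneralLinearGroup.map (fixF σ).subtype g₀, τ⟩ : GamL ι F) ∈ SP Q) (h₀ : (⟨g₀, resF σ τ⟩ : GamL ι (fixF σ)) ∈ SP Q₀) (s : Cfsg.Omega (fixF σ) ⇑Q₀) :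
    R Q ⟨_, h₁⟩ * lam0 hj s * (R Q ⟨_, h₁⟩)⁻¹ = lam0 hj (cjO Q₀ ⟨_, h₀⟩ s) := by
  have e1 : ∀ s, lam0 hj s = rho (GOs Q) le_rfl ⟨((liftO hj s : Cfsg.Omega F ⇑Q) : Cfsg.isometryGroup F ⇑Q), iso_le (liftO hj s).1.2⟩ := fun s => rfl
  rw [e1, e1]
  apply conj_rho
  show (((liftO hj (cjO Q₀ ⟨_, h₀⟩ s) : Cfsg.Omega F ⇑Q) : Cfsg.isometryGroup F ⇑Q) : GL ι F) = cjG _ (((liftO hj s : Cfsg.Omega F ⇑Q) : Cfsg.isometryGroup F ⇑Q) : GL ι F)
  rw [liftO_coe, liftO_coe, cjO_coe, cjG_apply, map_mul, map_mul, map_inv]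
  rfl

end lift

section main
variable {F : Type u} [Field F] [Fintype F] {ι : Type} [Fintype ι] [DecidableEq ι]
variable {Q : QuadraticForm F (ι → F)} {σ : F ≃+* F} {Q₀ : QuadraticForm (fixF σ) (ι → fixF σ)}
variable {e f : Fin 3 → (ι → F)} {u : ι → F} {e₀ f₀ : Fin 3 → (ι → fixF σ)} {u₀ : ι → fixF σ}

theorem range_card (hG : Gd Q e f u) : ∃ k, Nat.card ↥(rho (GOs Q) le_rfl).range = Nat.card (Cfsg.POmega F ⇑Q) * 2 ^ k := by
  obtain ⟨k, hk⟩ := (IsPGroup.iff_card (p := 2)).1 (quot_two hG ⟨u, hG.fr.qu⟩)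
  refine ⟨k, ?_⟩
  have h1 : Cfsg.Inn (Cfsg.POmega F ⇑Q) ≤ (rho (GOs Q) le_rfl).range := CfsgLib.RhoO27.inn_le_rho
  have h2 := Subgroup.card_mul_index ((Cfsg.Inn (Cfsg.POmega F ⇑Q)).subgroupOf (rho (GOs Q) le_rfl).range)
  have h3 : ((Cfsg.Inn (Cfsg.POmega F ⇑Q)).subgroupOf (rho (GOs Q) le_rfl).range).index = 2 ^ k := by
    rw [← hk]
    show _ = (KI Q).index
    unfold KI
    rw [Subgroup.index_comap]; rfl
  have h4 : Nat.card ((Cfsg.Inn (Cfsg.POmega F ⇑Q)).subgroupOf (rho (GOs Q) le_rfl).range) = Nat.card (Cfsg.POmega F ⇑Q) := by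
    have hinj : Function.Injective (MulAut.conj : Cfsg.POmega F ⇑Q →* MulAut (Cfsg.POmega F ⇑Q)) := by
      rw [injective_iff_map_eq_one]
      intro k hk
      apply pomega_centerless hG
      intro k'
      have h5 : k * k' * k⁻¹ = k' := DFunLike.congr_fun hk k'
      calc k * k' = k * k' * k⁻¹ * k := by group
        _ = k' * k := by rw [h5]
    rw [Nat.card_congr (Subgroup.subgroupOfEquivOfLe h1).toEquiv]
    exact (Nat.card_congr (MonoidHom.ofInjective hinj).toEquiv).symm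
  rw [h3, h4] at h2
  exact h2.symm

set_option maxHeartbeats 1000000 in
/-- local balance for standard field automorphisms -/
theorem lb_field (hG : Good Q e f u) (hG₀ : Gd Q₀ e₀ f₀ u₀) (hj : ∀ x, Q ((fixF σ).subtype ∘ x) = (fixF σ).subtype (Q₀ x)) (hσ : (⟨1, σ⟩ : GamL ι F) ∈ SP Q)
    {p : ℕ} [Fact p.Prime] (ho : orderOf σ = p) (hp : p = 2 → (2 : F) ≠ 0) (A : Subgroup (MulAut (Cfsg.POmega F ⇑Q))) (hinn : ∀ k : Cfsg.POmega F ⇑Q, MulAut.conj k ∈ A) :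
    Cfsg.pPrimeCore p ↥(A ⊓ Subgroup.centralizer {ph hσ}) ≠ ⊥ ↔
      Nat.Coprime p (Nat.card ↥(MonoidHom.eqLocus (ph hσ).toMonoidHom (MonoidHom.id (Cfsg.POmega F ⇑Q)))) := by
  haveI := Fintype.ofFinite (fixF σ)
  haveI := ne_of_gd hG.gd
  haveI : Finite (Cfsg.POmega F ⇑Q) := inferInstance
  obtain ⟨eL⟩ := lam_equiv hG.gd hG₀ hj
  have hcl := pomega_centerless hG.gd
  have hker := lam0_ker hG.gd hG₀ hj
  have hx₀ : ∃ x, Q₀ x ≠ 0 := ⟨u₀, hG₀.fr.qu⟩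
  refine lb_main hcl (ph hσ) (by rw [ph_order hG hσ, ho]) A hinn (lam0 hj).range ?_ ?_ ?_ ?_ ?_ ?_
  · rintro _ ⟨s, rfl⟩
    exact ⟨_, (lam0_conj hj s).symm⟩
  · rintro _ ⟨s, rfl⟩
    have e1 : ∀ s, lam0 hj s = rho (GOs Q) le_rfl ⟨((liftO hj s : Cfsg.Omega F ⇑Q) : Cfsg.isometryGroup F ⇑Q), iso_le (liftO hj s).1.2⟩ := fun s => rfl
    rw [e1, ph_mul_rho (GOs Q) le_rfl hσ (fun g hg => gm_GOs hσ hg)]
    congr 2
    apply Subtype.ext
    apply Units.ext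
    ext i k
    exact ((((s : Cfsg.isometryGroup (fixF σ) ⇑Q₀) : GL ι (fixF σ)) : Matrix ι ι (fixF σ)) i k).2.symm
  · intro y hy l hl
    obtain ⟨s, rfl⟩ := hl
    obtain ⟨τ, g₀, h₁, h₀, rfl⟩ := commuting hG hx₀ hj hσ y hy
    exact ⟨_, (conj_lam0 hj h₁ h₀ s).symm⟩
  · haveI := gd_simple hG₀
    exact eL.symm.isSimpleGroup
  · intro hd
    rw [← Nat.card_congr eL.toEquiv]
    by_cases hp2 : p = 2
    · have h2 : (2 : fixF σ) ≠ 0 := fun h3 => hp hp2 (congrArg Subtype.val h3)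
      rw [hp2]
      exact two_dvd hG₀ h2
    · obtain ⟨e1⟩ := CfsgLib.Semi27.centralizer_equiv (ρ := rho (GOs Q) le_rfl) (φ := ph hσ)
        (fun g hg => gm_GOs hσ hg) (fun g => ph_mul_rho _ _ hσ (fun g hg => gm_GOs hσ hg) g)
        (rho_ker' _ _ hG.gd) (fun u => scal_mem u) (RingEquiv.refl (fixF σ)) (Γ₀ := GOs Q₀) (fun g => comap_GOs (fixF σ).subtype hj hx₀ g)
      obtain ⟨e2⟩ := range_equiv' (GOs Q₀) le_rfl hG₀
      obtain ⟨k, hk⟩ := range_card hG₀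
      have h1 : Nat.card ↥((MulAut.conj : Cfsg.POmega F ⇑Q →* MulAut (Cfsg.POmega F ⇑Q)).range ⊓ Subgroup.centralizer {ph hσ}) ∣
          Nat.card ↥((rho (GOs Q) le_rfl).range ⊓ Subgroup.centralizer {ph hσ}) :=
        Subgroup.card_dvd_of_le (inf_le_inf_right _ CfsgLib.RhoO27.inn_le_rho)
      rw [Nat.card_congr (e1.trans e2.symm).toEquiv, hk] at h1
      rcases (Nat.Prime.dvd_mul (Fact.out : p.Prime)).1 (hd.trans h1) with h3 | h3
      · exact h3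
      · exfalso
        exact hp2 ((Nat.prime_dvd_prime_iff_eq (Fact.out) Nat.prime_two).1 ((Fact.out : p.Prime).dvd_of_dvd_pow h3))
  · intro y hy hl
    obtain ⟨τ, g₀, h₁, h₀, rfl⟩ := commuting hG hx₀ hj hσ y hy
    have h3 : R Q₀ ⟨_, h₀⟩ = 1 := by
      apply MulEquiv.ext
      intro z
      obtain ⟨s, rfl⟩ := QuotientGroup.mk_surjective z
      rw [R_mk]
      show _ = (QuotientGroup.mk s : Cfsg.POmega (fixF σ) ⇑Q₀)
      rw [QuotientGroup.eq, ← hker, MonoidHom.mem_ker, map_mul, map_inv, ← conj_lam0 hj h₁ h₀ s, hl _ ⟨s, rfl⟩, mul_inv_cancel_right, inv_mul_cancel]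
    obtain ⟨h4, a, h5⟩ := (R_ker' hG₀ _).1 h3
    have h6 : resF σ τ = 1 := h4
    have h7 : g₀ = scal a := h5
    have h8 : τ ∈ Subgroup.zpowers σ := mem_zpowers_of_fix (fun b => by
      have := congrArg Subtype.val (DFunLike.congr_fun h6 b)
      exact this)
    haveI : Finite (F ≃+* F) := CfsgLib.AutPSL27.gal_finite F
    rw [← mem_powers_iff_mem_zpowers] at h8
    obtain ⟨n, hn⟩ := h8
    have hn' : σ ^ n = τ := hn
    subst hn'
    have h9 : R Q ⟨_, h₁⟩ = ph hσ ^ n := by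
      rw [ph_pow hσ n (mul_mem_std hσ n)]
      unfold ph
      rw [R_eq_iff' hG.gd]
      refine ⟨rfl, Units.map ((fixF σ).subtype : fixF σ →* F) a, ?_⟩
      show Matrix.GeneralLinearGroup.map (fixF σ).subtype g₀ = _ * (1 : GL ι F)
      rw [h7, map_scal, mul_one]
    rw [h9]
    exact Subgroup.npow_mem_zpowers _ n

end main

end CfsgLib.LB27
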