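import Cfsg.Agent.LibLB27c
import Cfsg.Agent.LibAutPSp27h
import Cfsg.Agent.S0247

set_option autoImplicit false

/-! Local balance: variant of the abstract argument, and rational elements of `Sp`. -/

namespace CfsgLib.LB27

open Cfsg.Agent.H22 CfsgLib.Semi27 CfsgLib.Lift27 Matrix

universe u

theorem core_congr {G H : Type*} [Group G] [Group H] {p : ℕ} (f : G ≃* H) (h : Cfsg.pPrimeCore p G = ⊥) : Cfsg.pPrimeCore p H = ⊥ := by
  rw [core_bot] at h ⊢
  intro N hN hc
  have h3 := h (N.map f.symm.toMonoidHom) (hN.map _ f.symm.surjective) (by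
    rwa [← Nat.card_congr (Subgroup.equivMapOfInjective N f.symm.toMonoidHom f.symm.injective).toEquiv])
  exact (Subgroup.map_eq_bot_iff_of_injective N f.symm.injective).1 h3

theorem core_simple {G : Type*} [Group G] [Finite G] {p : ℕ} [Fact p.Prime] (hs : IsSimpleGroup G) (hp : p ∣ Nat.card G) : Cfsg.pPrimeCore p G = ⊥ := by
  rw [core_bot]
  intro N hN hc
  rcases hs.eq_bot_or_eq_top_of_normal N hN with h | h
  · exact h
  · exfalso
    rw [h, Subgroup.card_top] at hc
    have := Nat.dvd_gcd hp (dvd_refl p)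
    rw [hc] at this
    exact (Fact.out : p.Prime).one_lt.ne' (Nat.dvd_one.1 this)

theorem core_s6 {p : ℕ} [Fact p.Prime] (hp2 : p ≠ 2) (hp : p ∣ Nat.card (Equiv.Perm (Fin 6))) : Cfsg.pPrimeCore p (Equiv.Perm (Fin 6)) = ⊥ := by
  rw [core_bot]
  intro N hN hc
  haveI : IsSimpleGroup (alternatingGroup (Fin 6)) := alternatingGroup.isSimpleGroup (by simp)
  have hA : N ⊓ alternatingGroup (Fin 6) = ⊥ := by
    have hn : (N.subgroupOf (alternatingGroup (Fin 6))).Normal := inferInstance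
    rcases hn.eq_bot_or_eq_top with h | h
    · rw [Subgroup.subgroupOf_eq_bot] at h
      exact disjoint_iff.1 h
    · exfalso
      rw [Subgroup.subgroupOf_eq_top] at h
      have h1 := Subgroup.card_dvd_of_le h
      have h2 : 2 * Nat.card (alternatingGroup (Fin 6)) = Nat.card (Equiv.Perm (Fin 6)) := two_mul_nat_card_alternatingGroup
      rw [← h2] at hp
      have h3 : p ∣ Nat.card (alternatingGroup (Fin 6)) := by
        rcases ((Fact.out : p.Prime).dvd_mul).1 hp with h | h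
        · exact absurd ((Nat.prime_dvd_prime_iff_eq Fact.out Nat.prime_two).1 h) hp2
        · exact h
      have := Nat.dvd_gcd (h3.trans h1) (dvd_refl p)
      rw [hc] at this
      exact (Fact.out : p.Prime).one_lt.ne' (Nat.dvd_one.1 this)
  have hZ : N ≤ Subgroup.center (Equiv.Perm (Fin 6)) := by
    intro n hn
    rw [Subgroup.mem_center_iff]
    intro t
    have h1 : t * n * t⁻¹ * n⁻¹ ∈ N ⊓ alternatingGroup (Fin 6) := by
      refine ⟨N.mul_mem (hN.conj_mem n hn t) (N.inv_mem hn), ?_⟩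
      show t * n * t⁻¹ * n⁻¹ ∈ alternatingGroup (Fin 6)
      rw [Equiv.Perm.mem_alternatingGroup, map_mul, map_mul, map_mul, map_inv, map_inv, mul_right_comm _ _ (Equiv.Perm.sign t)⁻¹, mul_inv_cancel, one_mul,
        mul_inv_cancel]
    rw [hA, Subgroup.mem_bot] at h1
    calc t * n = t * n * t⁻¹ * n⁻¹ * (n * t) := by group
      _ = n * t := by rw [h1, one_mul]
  rw [Cfsg.Agent.H22.Cv.perm_center_bot (by norm_num)] at hZ
  exact le_bot_iff.1 hZ

/-- a normal `p'`-subgroup of the centralizer vanishes -/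
theorem core_eq_bot' {G : Type*} [Group G] [Finite G] {p : ℕ} [Fact p.Prime] (x : G) (hx : orderOf x = p) (A : Subgroup G) (L : Subgroup G)
    (hLA : L ≤ A) (hLx : ∀ l ∈ L, l * x = x * l) (hLn : ∀ y : G, y * x = x * y → ∀ l ∈ L, y * l * y⁻¹ ∈ L) (hs : Cfsg.pPrimeCore p L = ⊥)
    (hc : ∀ y : G, y * x = x * y → (∀ l ∈ L, y * l = l * y) → y ∈ Subgroup.zpowers x) :
    Cfsg.pPrimeCore p ↥(A ⊓ Subgroup.centralizer {x}) = ⊥ := by
  rw [core_bot] at hs ⊢
  intro N hN hcop
  have hC : ∀ y : ↥(A ⊓ Subgroup.centralizer {x}), (y : G) * x = x * (y : G) := fun y => (mem_inf_cen.1 y.2).2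
  have hLC : ∀ l ∈ L, l ∈ A ⊓ Subgroup.centralizer {x} := fun l hl => mem_inf_cen.2 ⟨hLA hl, hLx l hl⟩
  generalize A ⊓ Subgroup.centralizer {x} = C at *
  -- the intersection with L
  obtain ⟨M, hM⟩ : ∃ M : Subgroup L, M = (N.map C.subtype).subgroupOf L := ⟨_, rfl⟩
  have hMn : M.Normal := by
    constructor
    intro n hn g
    rw [hM, Subgroup.mem_subgroupOf] at hn ⊢
    obtain ⟨n', hn', he⟩ := hn
    refine ⟨⟨g.1, hLC g.1 g.2⟩ * n' * ⟨g.1, hLC g.1 g.2⟩⁻¹, hN.conj_mem n' hn' _, ?_⟩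
    rw [map_mul, map_mul, map_inv, he]; rfl
  have hMb : M = ⊥ := by
    apply hs M hMn
    have h4 : Nat.card N = Nat.card (N.map C.subtype) := Nat.card_congr (Subgroup.equivMapOfInjective N _ (Subgroup.subtype_injective _)).toEquiv
    have h5 : Nat.card M ∣ Nat.card N := by
      rw [h4]
      have h6 : Nat.card M = Nat.card (M.map L.subtype) := Nat.card_congr (Subgroup.equivMapOfInjective M _ (Subgroup.subtype_injective _)).toEquiv
      rw [h6, hM, Subgroup.subgroupOf_map_subtype]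
      exact Subgroup.card_dvd_of_le inf_le_left
    exact Nat.Coprime.coprime_dvd_left h5 hcop
  rw [Subgroup.eq_bot_iff_forall]
  intro y hy
  have hcomm : ∀ l ∈ L, (y : G) * l = l * (y : G) := by
    intro l hl
    have h1 : (y : G) * l * (y : G)⁻¹ * l⁻¹ ∈ L := L.mul_mem (hLn y (hC y) l hl) (L.inv_mem hl)
    have h2 : (⟨_, h1⟩ : L) ∈ M := by
      rw [hM, Subgroup.mem_subgroupOf]
      refine ⟨y * (⟨l, hLC l hl⟩ * y⁻¹ * ⟨l, hLC l hl⟩⁻¹), N.mul_mem hy (hN.conj_mem _ (N.inv_mem hy) _), ?_⟩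
      show (y : G) * (l * (y : G)⁻¹ * l⁻¹) = (y : G) * l * (y : G)⁻¹ * l⁻¹
      group
    rw [hMb, Subgroup.mem_bot] at h2
    have h3 : (y : G) * l * (y : G)⁻¹ * l⁻¹ = 1 := congrArg Subtype.val h2
    calc (y : G) * l = ((y : G) * l * (y : G)⁻¹ * l⁻¹) * (l * y) := by group
      _ = l * y := by rw [h3, one_mul]
  have h1 := hc y (hC y) hcomm
  have h2 : orderOf (y : G) ∣ p := by rw [← hx]; exact orderOf_dvd_of_mem_zpowers h1
  have h3 : orderOf y ∣ p := by rw [← Subgroup.orderOf_coe]; exact h2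
  have h4 : orderOf y ∣ Nat.card N := by
    have := orderOf_dvd_natCard (⟨y, hy⟩ : N)
    rwa [Subgroup.orderOf_mk] at this
  have h5 : orderOf y ∣ 1 := by
    have := Nat.dvd_gcd h4 h3
    rwa [hcop] at this
  exact orderOf_eq_one_iff.1 (Nat.dvd_one.1 h5)

/-- local balance for an automorphism whose centralizer has a normal subgroup without `p'`-core with small centralizer -/
theorem lb_main' {K : Type*} [Group K] [Finite K] {p : ℕ} [Fact p.Prime] (hcl : ∀ k : K, (∀ k' : K, k * k' = k' * k) → k = 1) (x : MulAut K) (hx : orderOf x = p) (A : Subgroup (MulAut K))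
    (hinn : ∀ k : K, MulAut.conj k ∈ A) (L : Subgroup (MulAut K)) (hLi : ∀ l ∈ L, ∃ k, MulAut.conj k = l)
    (hLx : ∀ l ∈ L, l * x = x * l) (hLn : ∀ y : MulAut K, y * x = x * y → ∀ l ∈ L, y * l * y⁻¹ ∈ L) (hne : Nontrivial L)
    (hp : p ∣ Nat.card ↥((MulAut.conj : K →* MulAut K).range ⊓ Subgroup.centralizer {x}) → Cfsg.pPrimeCore p L = ⊥)
    (hc : ∀ y : MulAut K, y * x = x * y → (∀ l ∈ L, y * l = l * y) → y ∈ Subgroup.zpowers x) :
    Cfsg.pPrimeCore p ↥(A ⊓ Subgroup.centralizer {x}) ≠ ⊥ ↔ Nat.Coprime p (Nat.card ↥(MonoidHom.eqLocus x.toMonoidHom (MonoidHom.id K))) := by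
  constructor
  · intro h
    rw [Nat.Prime.coprime_iff_not_dvd (Fact.out : p.Prime)]
    intro hd
    apply h
    haveI : Finite (MulAut K) := Finite.of_injective (fun (e : MulAut K) => (e : K → K)) (fun a b h => MulEquiv.ext (fun k => congrFun h k))
    apply core_eq_bot' x hx A L _ hLx hLn (hp (by rw [card_inn hcl]; exact hd)) hc
    intro l hl
    obtain ⟨k, rfl⟩ := hLi l hl
    exact hinn k
  · intro h
    refine core_ne_bot hcl x A hinn ?_ h
    obtain ⟨⟨l, hl⟩, hl1⟩ := exists_ne (1 : L)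
    obtain ⟨k, rfl⟩ := hLi l hl
    refine ⟨k, (conj_comm_iff hcl).1 (hLx _ hl), ?_⟩
    rintro rfl
    apply hl1
    exact Subtype.ext (map_one _)

end CfsgLib.LB27
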