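import Cfsg.Agent.LibAutPSp27g
-- Template for statement S2712 (row 2712; see /opt/grader/pristine/manifest.json for weights).
-- Copy to Cfsg/Agent/S2712.lean and replace the sorry. The statement below is byte-identical to the frozen
-- statement Cfsg.CfsgFrozen.S2712 (Cfsg/Statements/S2712.lean; the theorem Cfsg.ltd21_psp_field_automorphism_prime_order_centralizer);
-- the grader kernel-checks Cfsg.Agent.S2712.result against that frozen type. Keep the theorem IN THIS FILE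
-- (a `result` declared elsewhere and merely imported here is not credited); helpers may live anywhere
-- under Cfsg/Agent/.
import Cfsg.Statements.S2712
-- import your own Cfsg.Agent.* helpers here

set_option autoImplicit false
open Cfsg

namespace Cfsg.Agent.S2712

open CfsgLib.AutPSp27 CfsgLib.Semi27 in
theorem comap_GSp {m : ℕ} {F : Type*} [Field F] {F₀ : Type*} [Field F₀] (j : F₀ →+* F) (hm : 1 ≤ m) (g : GL (Fin m ⊕ Fin m) F₀) :
    Matrix.GeneralLinearGroup.map j g ∈ Cfsg.GSp m F ↔ g ∈ Cfsg.GSp m F₀ := by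
  have hB : ∀ x y : Fin m ⊕ Fin m → F₀, Cfsg.Agent.H22.spB m F (j ∘ x) (j ∘ y) = j (Cfsg.Agent.H22.spB m F₀ x y) := by
    intro x y
    rw [Cfsg.Agent.H22.spB_apply, Cfsg.Agent.H22.spB_apply, Cfsg.Agent.H22.sympForm_eq_sum, Cfsg.Agent.H22.sympForm_eq_sum, map_sum]
    refine Finset.sum_congr rfl fun i _ => ?_
    simp
  have hM : ∀ x : Fin m ⊕ Fin m → F₀, ((Matrix.GeneralLinearGroup.map j g : GL (Fin m ⊕ Fin m) F) : Matrix (Fin m ⊕ Fin m) (Fin m ⊕ Fin m) F).mulVec (j ∘ x) =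
      j ∘ ((g : Matrix (Fin m ⊕ Fin m) (Fin m ⊕ Fin m) F₀).mulVec x) := by
    intro x
    ext i
    simp [Matrix.mulVec, dotProduct, map_sum]
  constructor
  · intro h
    obtain ⟨c, hc⟩ := mem_GSp.1 h
    obtain ⟨x0, y0, h0⟩ := exists_pair_one (F := F₀) hm
    have h1 := hc (j ∘ x0) (j ∘ y0)
    rw [hM, hM, hB, hB, h0, map_one, mul_one] at h1
    set c0 := Cfsg.Agent.H22.spB m F₀ ((g : Matrix (Fin m ⊕ Fin m) (Fin m ⊕ Fin m) F₀).mulVec x0) ((g : Matrix (Fin m ⊕ Fin m) (Fin m ⊕ Fin m) F₀).mulVec y0) with hc0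
    have hne : c0 ≠ 0 := by
      intro h
      rw [h, map_zero] at h1
      exact c.ne_zero h1.symm
    rw [mem_GSp]
    refine ⟨Units.mk0 c0 hne, fun x y => ?_⟩
    apply j.injective
    rw [← hB, ← hM, ← hM, hc, hB, map_mul, Units.val_mk0, h1]
  · intro h
    obtain ⟨c, hc⟩ := mem_GSp.1 h
    rw [mem_GSp]
    refine ⟨Units.map (j : F₀ →* F) c, ?_⟩
    let C : LinearMap.BilinForm F (Fin m ⊕ Fin m → F) := (Cfsg.Agent.H22.spB m F).compl₁₂
      (Matrix.toLin' ((Matrix.GeneralLinearGroup.map j g : GL (Fin m ⊕ Fin m) F) : Matrix (Fin m ⊕ Fin m) (Fin m ⊕ Fin m) F))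
      (Matrix.toLin' ((Matrix.GeneralLinearGroup.map j g : GL (Fin m ⊕ Fin m) F) : Matrix (Fin m ⊕ Fin m) (Fin m ⊕ Fin m) F))
    have hC : C = (j c) • Cfsg.Agent.H22.spB m F := by
      apply LinearMap.BilinForm.ext_basis (Pi.basisFun F (Fin m ⊕ Fin m))
      intro i k
      have hs : ∀ i : Fin m ⊕ Fin m, (Pi.single i 1 : Fin m ⊕ Fin m → F) = j ∘ (Pi.single i 1) := by
        intro i
        ext a
        by_cases ha : a = i
        · subst ha; simp
        · simp [ha]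
      rw [Pi.basisFun_apply, Pi.basisFun_apply, hs, hs, LinearMap.smul_apply, LinearMap.smul_apply, hB, smul_eq_mul]
      change Cfsg.Agent.H22.spB m F (((Matrix.GeneralLinearGroup.map j g : GL (Fin m ⊕ Fin m) F) : Matrix (Fin m ⊕ Fin m) (Fin m ⊕ Fin m) F).mulVec (j ∘ (Pi.single i 1)))
        (((Matrix.GeneralLinearGroup.map j g : GL (Fin m ⊕ Fin m) F) : Matrix (Fin m ⊕ Fin m) (Fin m ⊕ Fin m) F).mulVec (j ∘ (Pi.single k 1))) = _
      rw [hM, hM, hB, hc, map_mul]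
    intro x y
    have h1 := congrArg (fun D : LinearMap.BilinForm F (Fin m ⊕ Fin m → F) => D x y) hC
    exact h1


/-- Let T = PSp_{2m}(F) be simple over the field F with p^f elements (m ≥ 2, (2m, |F|) ≠ (4, 2)), G = Inndiag(T) the image of the projective conformal symplectic group PGSp_{2m}(F), and x a field automorphism of T of prime order r. Then r divides f; C_G(x) is isomorphic to PGSp_{2m}(F₀) for a field F₀ with p^(f/r) elements; and the G-class of x is the union of exactly gcd(gcd(2, p^f − 1), r) T-classes. -/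
theorem result {F : Type*} [Field F] [Fintype F] {p f : ℕ} [Fact p.Prime] (hF : Fintype.card F = p ^ f) (hf : 1 ≤ f) {m : ℕ} (hm : 2 ≤ m) (hs : m = 2 → 3 ≤ Fintype.card F) (x : MulAut (Cfsg.PSp m F)) (hx : Cfsg.IsFieldAutClassPSp x) {r : ℕ} (hr : r.Prime) (hxr : orderOf x = r) (F₀ : Type*) [Field F₀] [Fintype F₀] (hF₀ : Fintype.card F₀ = p ^ (f / r)) :
    r ∣ f ∧ Nonempty (↥(Cfsg.inndiagPSp m F ⊓ Subgroup.centralizer {x}) ≃* Cfsg.PGSp m F₀) ∧ Cfsg.splitClassCount (Cfsg.inndiagPSp m F) (Cfsg.Inn (Cfsg.PSp m F)) x = Nat.gcd (Nat.gcd 2 (p ^ f - 1)) r := by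
  haveI := CfsgLib.AutPSL27.charP_of_card hF
  haveI : Nonempty (Fin m ⊕ Fin m) := ⟨Sum.inl ⟨0, by omega⟩⟩
  have hF' : Nat.card F = p ^ f := by rw [Nat.card_eq_fintype_card, hF]
  obtain ⟨α, σ, hσ, hst⟩ := hx
  rw [CfsgLib.AutPSp27.isStd_iff] at hst
  have h1 : CfsgLib.AutPSp27.phi m σ ^ r = 1 := by
    rw [← hst, conj_pow, ← hxr, pow_orderOf_eq_one, mul_one, mul_inv_cancel]
  have hord : orderOf σ = r := by
    haveI : Fact r.Prime := ⟨hr⟩
    refine orderOf_eq_prime ?_ hσ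
    rw [CfsgLib.AutPSp27.phi_pow] at h1
    exact CfsgLib.AutPSp27.phi_eq_one (p := p) (by omega : 1 ≤ m) h1
  obtain ⟨hrf, hK⟩ := CfsgLib.AutPSL27.field_arith (F := F) hF' hr.pos σ hord
  have hG : ∀ β : MulAut (Cfsg.PSp m F), ∀ g ∈ Cfsg.inndiagPSp m F, β * g * β⁻¹ ∈ Cfsg.inndiagPSp m F := by
    intro β g hg
    rw [CfsgLib.AutPSp27.inndiag_eq] at hg ⊢
    obtain ⟨d, rfl⟩ := hg
    obtain ⟨d', hd'⟩ := CfsgLib.AutPSp27.inndiag_normal (p := p) hm β d
    exact ⟨d', hd'.symm⟩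
  have hT : ∀ β : MulAut (Cfsg.PSp m F), ∀ g ∈ Cfsg.Inn (Cfsg.PSp m F),
      β * g * β⁻¹ ∈ Cfsg.Inn (Cfsg.PSp m F) := fun β g hg =>
    (Cfsg.innNormal (Cfsg.PSp m F)).conj_mem g hg β
  obtain ⟨e0⟩ := CfsgLib.AutPSL27.field_equiv (K := F₀) (L := CfsgLib.H9027.fixF σ) (by
    rw [hK, Nat.card_eq_fintype_card, hF₀])
  refine ⟨hrf, ?_, ?_⟩
  · obtain ⟨e1⟩ := CfsgLib.Split27.centr_conj (Cfsg.inndiagPSp m F) x α (hG α) (fun g hg => by
      have := hG α⁻¹ g hg
      rwa [inv_inv] at this)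
    rw [hst] at e1
    obtain ⟨e2⟩ := CfsgLib.Semi27.centralizer_equiv (ρ := CfsgLib.AutPSp27.rho m F) (φ := CfsgLib.AutPSp27.phi m σ)
      (fun g hg => CfsgLib.AutPSp27.gm_mem hg) (fun g => CfsgLib.AutPSp27.phi_mul_rho σ g)
      (CfsgLib.AutPSp27.rho_ker (p := p) (by omega)) (fun u => CfsgLib.AutPSp27.scal_mem u) e0 (Γ₀ := Cfsg.GSp m F₀)
      (fun g => comap_GSp _ (by omega) g)
    rw [← CfsgLib.AutPSp27.inndiag_eq] at e2
    exact ⟨e1.trans e2⟩
  · have hq0 : 2 ≤ p ^ (f / r) := by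
      have h2 : 2 ≤ p := (Fact.out : p.Prime).two_le
      have h3 : 0 < f / r := Nat.div_pos (Nat.le_of_dvd (by omega) hrf) hr.pos
      calc 2 ≤ p := h2
        _ = p ^ 1 := (pow_one p).symm
        _ ≤ p ^ (f / r) := Nat.pow_le_pow_right (by omega) h3
    have hff : p ^ f = (p ^ (f / r)) ^ r := by rw [← pow_mul, Nat.div_mul_cancel hrf]
    rw [CfsgLib.Split27.splitCount_conj _ _ x α (hG α) (fun g hg => by
      have := hG α⁻¹ g hg
      rwa [inv_inv] at this) (hT α) (fun g hg => by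
      have := hT α⁻¹ g hg
      rwa [inv_inv] at this), hst, CfsgLib.AutPSp27.split_field (p := p) (by omega) σ, hF', hK, hff]
    exact CfsgLib.AutPSp27.split_arith hq0 hr.pos

end Cfsg.Agent.S2712
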