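import Cfsg.Agent.LibLB27d
import Cfsg.Agent.S2712

set_option autoImplicit false

/-! Local balance: rational elements of `Sp`. -/

namespace CfsgLib.LB27

open Cfsg.Agent.H22 CfsgLib.Semi27 CfsgLib.Lift27 CfsgLib.AutPSp27 CfsgLib.H9027 Matrix

section psp
variable {m : ℕ} {F : Type*} [Field F] {σ : F ≃+* F}

local notation "V" => (Fin m ⊕ Fin m → F)
local notation "Sp" => (Matrix.symplecticGroup (Fin m) F)
local notation "Sp₀" => (Matrix.symplecticGroup (Fin m) (fixF σ))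
local notation "B" => (spB m F)
local notation "π" => (QuotientGroup.mk' (Subgroup.center (Matrix.symplecticGroup (Fin m) F)))
local notation "π₀" => (QuotientGroup.mk' (Subgroup.center (Matrix.symplecticGroup (Fin m) (fixF σ))))

theorem mapJ {F₀ : Type*} [Field F₀] (j : F₀ →+* F) : (Matrix.J (Fin m) F₀).map j = Matrix.J (Fin m) F := by
  unfold Matrix.J
  rw [fromBlocks_map]
  congr 1
  · ext a b; simp
  · ext a b
    by_cases h : a = b
    · subst h; simp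
    · simp [Matrix.one_apply_ne h]
  · ext a b
    by_cases h : a = b
    · subst h; simp
    · simp [Matrix.one_apply_ne h]
  · ext a b; simp

theorem map_sp_iff {F₀ : Type*} [Field F₀] (j : F₀ →+* F) (A : Matrix (Fin m ⊕ Fin m) (Fin m ⊕ Fin m) F₀) :
    A.map j ∈ Matrix.symplecticGroup (Fin m) F ↔ A ∈ Matrix.symplecticGroup (Fin m) F₀ := by
  rw [SymplecticGroup.mem_iff, SymplecticGroup.mem_iff, ← mapJ j, ← Matrix.map_mul, ← Matrix.transpose_map, ← Matrix.map_mul]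
  constructor
  · intro h
    ext a b
    apply j.injective
    exact congrFun (congrFun h a) b
  · intro h
    rw [h]

/-- rational elements -/
noncomputable def jSp (m : ℕ) {F : Type*} [Field F] (σ : F ≃+* F) : Matrix.symplecticGroup (Fin m) (fixF σ) →* Matrix.symplecticGroup (Fin m) F where
  toFun s := ⟨(s : Matrix (Fin m ⊕ Fin m) (Fin m ⊕ Fin m) (fixF σ)).map (fixF σ).subtype, (map_sp_iff _ _).2 s.2⟩
  map_one' := Subtype.ext (Matrix.map_one _ (map_zero _) (map_one _))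
  map_mul' s t := Subtype.ext (Matrix.map_mul)

theorem coe_jSp (s : Sp₀) : ((jSp m σ s : Sp) : Matrix (Fin m ⊕ Fin m) (Fin m ⊕ Fin m) F) = (s : Matrix (Fin m ⊕ Fin m) (Fin m ⊕ Fin m) (fixF σ)).map (fixF σ).subtype := rfl

theorem toGSp_jSp (s : Sp₀) : ((toGSp (jSp m σ s) : Cfsg.GSp m F) : GL (Fin m ⊕ Fin m) F) = Matrix.GeneralLinearGroup.map (fixF σ).subtype ((toGSp s : Cfsg.GSp m (fixF σ)) : GL (Fin m ⊕ Fin m) (fixF σ)) := by
  apply Units.ext
  rfl

theorem center_iff {p : ℕ} [Fact p.Prime] [CharP F p] (hm : 1 ≤ m) (s : Sp) : s ∈ Subgroup.center Sp ↔ ∃ u : Fˣ, ((toGSp s : Cfsg.GSp m F) : GL (Fin m ⊕ Fin m) F) = scal u := by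
  constructor
  · intro h
    rw [← rho_ker (p := p) hm, ← conj_mk]
    have : π s = 1 := (QuotientGroup.eq_one_iff s).2 h
    rw [this, map_one]
  · rintro ⟨u, hu⟩
    rw [Subgroup.mem_center_iff]
    intro t
    apply Subtype.ext
    have hu' : (s : Matrix (Fin m ⊕ Fin m) (Fin m ⊕ Fin m) F) = ((scal u : GL (Fin m ⊕ Fin m) F) : Matrix (Fin m ⊕ Fin m) (Fin m ⊕ Fin m) F) :=
      congrArg Units.val hu
    have ht : ((toGSp t : Cfsg.GSp m F) : GL (Fin m ⊕ Fin m) F) * scal u = scal u * ((toGSp t : Cfsg.GSp m F) : GL (Fin m ⊕ Fin m) F) :=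
      (scal_comm _ _).symm
    show (t : Matrix (Fin m ⊕ Fin m) (Fin m ⊕ Fin m) F) * s = s * t
    rw [hu']
    exact congrArg Units.val ht

theorem psp_centerless {p : ℕ} [Fact p.Prime] [CharP F p] (hm : 1 ≤ m) (k : Cfsg.PSp m F) (h : ∀ k', k * k' = k' * k) : k = 1 := by
  obtain ⟨s, rfl⟩ := QuotientGroup.mk'_surjective _ k
  refine (QuotientGroup.eq_one_iff s).2 ((center_iff (p := p) hm s).2 ?_)
  rw [← rho_ker (p := p) hm, ← conj_mk]
  apply MulEquiv.ext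
  intro y
  show π s * y * (π s)⁻¹ = y
  rw [h, mul_inv_cancel_right]

theorem center_jSp [Finite F] {p : ℕ} [Fact p.Prime] [CharP F p] (hm : 1 ≤ m) (s : Sp₀) : jSp m σ s ∈ Subgroup.center Sp ↔ s ∈ Subgroup.center Sp₀ := by
  haveI : Nonempty (Fin m ⊕ Fin m) := ⟨Sum.inl ⟨0, hm⟩⟩
  letI := Fintype.ofFinite F
  haveI : CharP (fixF σ) p := inferInstance
  rw [center_iff (p := p) hm, center_iff (p := p) hm, toGSp_jSp]
  constructor
  · rintro ⟨u, hu⟩
    exact scal_of_map hu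
  · rintro ⟨u, hu⟩
    rw [hu]
    exact ⟨_, map_scal u⟩

theorem pi_jSp [Finite F] {p : ℕ} [Fact p.Prime] [CharP F p] (hm : 1 ≤ m) (s t : Sp₀) : π (jSp m σ s) = π (jSp m σ t) ↔ π₀ s = π₀ t := by
  have e1 : π (jSp m σ s) = π (jSp m σ t) ↔ π (jSp m σ (s⁻¹ * t)) = 1 := by
    rw [map_mul, map_mul, map_inv, map_inv, inv_mul_eq_one]
  have e2 : π₀ s = π₀ t ↔ π₀ (s⁻¹ * t) = 1 := by
    rw [map_mul, map_inv, inv_mul_eq_one]
  rw [e1, e2, QuotientGroup.mk'_apply, QuotientGroup.mk'_apply, QuotientGroup.eq_one_iff, QuotientGroup.eq_one_iff, center_jSp (p := p) hm]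

/-- rational inner automorphisms -/
noncomputable def lamSp (m : ℕ) {F : Type*} [Field F] (σ : F ≃+* F) : Matrix.symplecticGroup (Fin m) (fixF σ) →* MulAut (Cfsg.PSp m F) :=
  (MulAut.conj).comp ((QuotientGroup.mk' (Subgroup.center (Matrix.symplecticGroup (Fin m) F))).comp (jSp m σ))

theorem lamSp_apply (s : Sp₀) : lamSp m σ s = MulAut.conj (π (jSp m σ s)) := rfl

theorem lamSp_ker [Finite F] {p : ℕ} [Fact p.Prime] [CharP F p] (hm : 1 ≤ m) : (lamSp m σ).ker = Subgroup.center Sp₀ := by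
  ext s
  rw [MonoidHom.mem_ker, lamSp_apply, conj_mk, rho_ker (p := p) hm, ← center_iff (p := p) hm, center_jSp (p := p) hm]

theorem lamSp_equiv [Finite F] {p : ℕ} [Fact p.Prime] [CharP F p] (hm : 1 ≤ m) : Nonempty (Cfsg.PSp m (fixF σ) ≃* (lamSp m σ).range) :=
  ⟨(QuotientGroup.quotientMulEquivOfEq (lamSp_ker (p := p) hm)).symm.trans (QuotientGroup.quotientKerEquivRange (lamSp m σ))⟩

/-- elements commuting with the standard field automorphism -/
theorem commutingSp [Finite F] {p : ℕ} [Fact p.Prime] [CharP F p] (hm : 1 ≤ m) (g : Cfsg.GSp m F) (τ : F ≃+* F)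
    (hy : rho m F g * phi m τ * phi m σ = phi m σ * (rho m F g * phi m τ)) :
    ∃ (g₀ : Cfsg.GSp m (fixF σ)), ∃ h : Matrix.GeneralLinearGroup.map (fixF σ).subtype (g₀ : GL (Fin m ⊕ Fin m) (fixF σ)) ∈ Cfsg.GSp m F,
      rho m F g * phi m τ = rho m F ⟨_, h⟩ * phi m τ := by
  haveI : Nonempty (Fin m ⊕ Fin m) := ⟨Sum.inl ⟨0, hm⟩⟩
  have hcomm : phi m τ * phi m σ = phi m σ * phi m τ := by
    have e : ∀ a b : F ≃+* F, phi m a * phi m b = phi m (a * b) := fun a b => (map_mul ((CfsgLib.AutPSL27.lft (G := Matrix.symplecticGroup (Fin m) F)).comp fS) a b).symm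
    rw [e, e, CfsgLib.AutPSL27.gal_comm]
  have h1 : rho m F g * phi m σ = phi m σ * rho m F g := by
    rw [mul_assoc, hcomm, ← mul_assoc, ← mul_assoc] at hy
    exact mul_right_cancel hy
  obtain ⟨u, h, hh, hgh⟩ := (CfsgLib.Semi27.comm_iff (ρ := rho m F) (φ := phi m σ) (fun g hg => gm_mem hg) (fun g => phi_mul_rho σ g)
    (rho_ker (p := p) hm) g).1 h1
  obtain ⟨g₀, rfl⟩ := fixed_gl hh
  have hmem : Matrix.GeneralLinearGroup.map (fixF σ).subtype g₀ ∈ Cfsg.GSp m F := by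
    have e1 : Matrix.GeneralLinearGroup.map (fixF σ).subtype g₀ = (scal u)⁻¹ * (g : GL (Fin m ⊕ Fin m) F) := by
      rw [hgh, inv_mul_cancel_left]
    rw [e1]
    exact mul_mem (inv_mem (AutPSp27.scal_mem u)) g.2
  refine ⟨⟨g₀, (Cfsg.Agent.S2712.comap_GSp _ hm g₀).1 hmem⟩, hmem, ?_⟩
  congr 1
  rw [rho_eq_iff (rho_ker (p := p) hm)]
  exact ⟨u, hgh⟩

/-- the action on rational elements -/
theorem action (g₀ : Cfsg.GSp m (fixF σ)) (h : Matrix.GeneralLinearGroup.map (fixF σ).subtype (g₀ : GL (Fin m ⊕ Fin m) (fixF σ)) ∈ Cfsg.GSp m F) [Finite F] (τ : F ≃+* F) (s : Sp₀) :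
    (rho m F ⟨_, h⟩ * phi m τ) (π (jSp m σ s)) = π (jSp m σ (cjS g₀ (fS (resF σ τ) s))) := by
  show π (cjS ⟨_, h⟩ (fS τ (jSp m σ s))) = _
  congr 1
  apply Subtype.ext
  rw [coe_cjS, coe_jSp, coe_cjS, coe_fS, coe_fS, coe_jSp, Matrix.map_mul, Matrix.map_mul]
  rfl

theorem hcSp [Finite F] {p : ℕ} [Fact p.Prime] [CharP F p] (hm : 1 ≤ m) (g : Cfsg.GSp m F) (τ : F ≃+* F)
    (hy : rho m F g * phi m τ * phi m σ = phi m σ * (rho m F g * phi m τ)) (hL : ∀ l ∈ (lamSp m σ).range, rho m F g * phi m τ * l = l * (rho m F g * phi m τ)) :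
    rho m F g * phi m τ ∈ Subgroup.zpowers (phi m σ) := by
  haveI : Nonempty (Fin m ⊕ Fin m) := ⟨Sum.inl ⟨0, hm⟩⟩
  letI := Fintype.ofFinite F
  obtain ⟨g₀, h, he⟩ := commutingSp (p := p) hm g τ hy
  rw [he] at hL ⊢
  have h1 : rho m (fixF σ) g₀ * phi m (resF σ τ) = 1 := by
    apply MulEquiv.ext
    intro k
    obtain ⟨s, rfl⟩ := QuotientGroup.mk'_surjective _ k
    have h2 := hL _ ⟨s, rfl⟩
    rw [lamSp_apply] at h2
    have h3 := (conj_comm_iff (fun k h => psp_centerless (p := p) hm k h)).1 h2.symm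
    rw [action, pi_jSp (p := p) hm] at h3
    exact h3
  haveI : CharP (fixF σ) p := inferInstance
  obtain ⟨h2, u, hu⟩ := unique_one (p := p) hm h1
  have h3 : rho m F ⟨_, h⟩ = 1 := by
    rw [rho_ker (p := p) hm]
    refine ⟨Units.map ((fixF σ).subtype : fixF σ →* F) u, ?_⟩
    show Matrix.GeneralLinearGroup.map (fixF σ).subtype (g₀ : GL (Fin m ⊕ Fin m) (fixF σ)) = _
    rw [hu]
    exact map_scal u
  have h4 : τ ∈ Subgroup.zpowers σ := by
    apply mem_zpowers_of_fix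
    intro a
    rw [← resF_coe, h2]; rfl
  rw [h3, one_mul]
  obtain ⟨k, rfl⟩ := h4
  refine ⟨k, ?_⟩
  exact (map_zpow ((CfsgLib.AutPSL27.lft (G := Matrix.symplecticGroup (Fin m) F)).comp fS) σ k).symm

theorem hnSp [Finite F] {p : ℕ} [Fact p.Prime] [CharP F p] (hm : 1 ≤ m) (g : Cfsg.GSp m F) (τ : F ≃+* F)
    (hy : rho m F g * phi m τ * phi m σ = phi m σ * (rho m F g * phi m τ)) {l : MulAut (Cfsg.PSp m F)} (hl : l ∈ (lamSp m σ).range) :
    rho m F g * phi m τ * l * (rho m F g * phi m τ)⁻¹ ∈ (lamSp m σ).range := by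
  obtain ⟨g₀, h, he⟩ := commutingSp (p := p) hm g τ hy
  rw [he]
  obtain ⟨s, rfl⟩ := hl
  refine ⟨cjS g₀ (fS (resF σ τ) s), ?_⟩
  rw [lamSp_apply, lamSp_apply, ← action g₀ h τ s]
  apply MulEquiv.ext
  intro y
  generalize rho m F ⟨_, h⟩ * phi m τ = β
  show β (π (jSp m σ s)) * y * (β (π (jSp m σ s)))⁻¹ = β (π (jSp m σ s) * (β⁻¹ y) * (π (jSp m σ s))⁻¹)
  rw [map_mul, map_mul, map_inv, MulAut.apply_inv_self]

/-- fixed points for odd `p` -/
theorem fixed_odd {r : ℕ} [Fact r.Prime] [CharP F r] (hm : 1 ≤ m) {p : ℕ} (hp : Odd p) (hσ : σ ^ p = 1) (s : Sp) (h : MulAut.conj (π s) * phi m σ = phi m σ * MulAut.conj (π s)) :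
    MulAut.conj (π s) ∈ (lamSp m σ).range := by
  haveI : Nonempty (Fin m ⊕ Fin m) := ⟨Sum.inl ⟨0, hm⟩⟩
  rw [conj_mk] at h
  obtain ⟨u, h', hh, hgh⟩ := (CfsgLib.Semi27.comm_iff (ρ := rho m F) (φ := phi m σ) (fun g hg => gm_mem hg) (fun g => phi_mul_rho σ g)
    (rho_ker (p := r) hm) (toGSp s)).1 h
  -- the entries
  obtain ⟨c, hc⟩ : ∃ c : Fˣ, gm σ ((toGSp s : Cfsg.GSp m F) : GL (Fin m ⊕ Fin m) F) = scal c * ((toGSp s : Cfsg.GSp m F) : GL (Fin m ⊕ Fin m) F) := by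
    rw [hgh]
    exact fixed_multiple_conv hh
  have hent : ∀ k l, σ ((s : Matrix (Fin m ⊕ Fin m) (Fin m ⊕ Fin m) F) k l) = c * (s : Matrix (Fin m ⊕ Fin m) (Fin m ⊕ Fin m) F) k l := by
    intro k l
    exact (congrArg (fun x : GL (Fin m ⊕ Fin m) F => (x : Matrix (Fin m ⊕ Fin m) (Fin m ⊕ Fin m) F) k l) hc).trans (scal_mul_apply _ _ _ _)
  have hc2 : (c : F) ^ 2 = 1 := by
    have h1 : (s : Matrix (Fin m ⊕ Fin m) (Fin m ⊕ Fin m) F).map σ ∈ Sp := map_mem σ s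
    have h2 : (s : Matrix (Fin m ⊕ Fin m) (Fin m ⊕ Fin m) F).map σ = (c : F) • (s : Matrix (Fin m ⊕ Fin m) (Fin m ⊕ Fin m) F) := by
      ext k l
      rw [Matrix.map_apply, hent, Matrix.smul_apply, smul_eq_mul]
    rw [h2, mem_Sp_iff] at h1
    obtain ⟨x, y, hxy⟩ := exists_pair_one (F := F) hm
    have h3 := h1 x y
    rw [smul_mulVec, smul_mulVec, map_smul, map_smul, LinearMap.smul_apply, smul_eq_mul, smul_eq_mul, mem_Sp_iff.1 s.2, hxy, mul_one] at h3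
    rw [pow_two, h3]
  have hσc : σ (c : F) = c := by
    have h1 : ((c : F) - 1) * ((c : F) + 1) = 0 := by linear_combination hc2
    rcases mul_eq_zero.1 h1 with h | h
    · rw [sub_eq_zero.1 h, map_one]
    · rw [eq_neg_of_add_eq_zero_left h, map_neg, map_one]
  have hc1 : (c : F) = 1 := by
    obtain ⟨i, j, hij⟩ := exists_entry_ne ((toGSp s : Cfsg.GSp m F) : GL (Fin m ⊕ Fin m) F)
    have hij' : (s : Matrix (Fin m ⊕ Fin m) (Fin m ⊕ Fin m) F) i j ≠ 0 := hij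
    have h1 : ∀ n : ℕ, (σ ^ n) ((s : Matrix (Fin m ⊕ Fin m) (Fin m ⊕ Fin m) F) i j) = (c : F) ^ n * (s : Matrix (Fin m ⊕ Fin m) (Fin m ⊕ Fin m) F) i j := by
      intro n
      induction n with
      | zero => rw [pow_zero, pow_zero, one_mul]; rfl
      | succ n ih =>
        rw [pow_succ']
        show σ ((σ ^ n) _) = _
        rw [ih, map_mul, map_pow, hσc, hent, pow_succ]; ring
    have h2 := h1 p
    rw [hσ] at h2
    have h3 : (c : F) ^ p = 1 := by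
      apply mul_right_cancel₀ hij'
      rw [← h2, one_mul]; rfl
    obtain ⟨k, hk⟩ := hp
    rw [hk, pow_succ, pow_mul, hc2, one_pow, one_mul] at h3
    exact h3
  have hc1' : c = 1 := Units.ext hc1
  rw [hc1', scal_one, one_mul] at hc
  obtain ⟨g₀, hg₀⟩ := fixed_gl hc
  have hmem : (g₀ : Matrix (Fin m ⊕ Fin m) (Fin m ⊕ Fin m) (fixF σ)) ∈ Matrix.symplecticGroup (Fin m) (fixF σ) := by
    rw [← map_sp_iff (fixF σ).subtype]
    have : (g₀ : Matrix (Fin m ⊕ Fin m) (Fin m ⊕ Fin m) (fixF σ)).map (fixF σ).subtype = s := congrArg Units.val hg₀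
    rw [this]
    exact s.2
  refine ⟨⟨_, hmem⟩, ?_⟩
  rw [lamSp_apply]
  congr 2
  apply Subtype.ext
  exact congrArg Units.val hg₀

end psp

end CfsgLib.LB27
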