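import Mathlib
import Cfsg.Agent.EqBase
import Cfsg.Agent.LibLE11Tate
import Cfsg.Agent.LibLE11Act

/-! `H`-subgroups (strongly closed in their normalizer) and normal `p`-complements -/

set_option autoImplicit false
open Subgroup
open scoped Pointwise commutatorElement

namespace CfsgLib.LE11Hsub

open CfsgLib.LE11Act CfsgLib.LE11Tate CfsgLib.FusionH12 CfsgLib.LE11Syl

universe u
variable {G : Type u} [Group G]

/-- the `H`-property -/
def HP (E : Subgroup G) : Prop :=
  ∀ g : G, E.map (MulAut.conj g).toMonoidHom ⊓ Subgroup.normalizer (E : Set G) ≤ E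

theorem HP.le_normalizer [Finite G] {p : ℕ} [hp : Fact p.Prime] {E P : Subgroup G} (h : HP E)
    (hEP : E ≤ P) (hP : IsPGroup p P) : P ≤ normalizer (E : Set G) := by
  by_contra hcon
  have hlt : normalizer (E : Set G) ⊓ P < P := lt_of_le_of_ne inf_le_right (fun e => hcon (by
    rw [← e]; exact inf_le_left))
  obtain ⟨x, hxP, hx, hxn⟩ := exists_mem_normalizer hP hlt
  apply hx
  refine ⟨?_, hxP⟩
  show x ∈ normalizer (E : Set G)
  rw [← conj_smul_eq_iff]
  refine Subgroup.eq_of_le_of_card_ge ?_ (card_conj x E).ge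
  refine le_trans (le_inf le_rfl ?_) (h x)
  intro y hy
  rw [mem_conj_smul] at hy
  have h1 : x⁻¹ * y * x ∈ normalizer (E : Set G) ⊓ P :=
    ⟨Subgroup.le_normalizer hy, hEP hy⟩
  have h2 := (Subgroup.mem_normalizer_iff.1 hxn _).1 h1
  have e : x * (x⁻¹ * y * x) * x⁻¹ = y := by group
  rw [e] at h2
  exact h2.1

/-- an `H`-subgroup of a `p`-group `P` is strongly closed in `P` -/
theorem HP.strong [Finite G] {p : ℕ} [hp : Fact p.Prime] {E P : Subgroup G} (h : HP E)
    (hEP : E ≤ P) (hP : IsPGroup p P) : ∀ e ∈ E, ∀ g : G, g * e * g⁻¹ ∈ P → g * e * g⁻¹ ∈ E := by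
  intro e he g hg
  apply h g
  refine ⟨⟨e, he, rfl⟩, h.le_normalizer hEP hP hg⟩

/-- the main criterion -/
theorem npc_of_strong [Finite G] {p : ℕ} [hp : Fact p.Prime]
    (hmin : ∀ q : ℕ, q.Prime → q ∣ Nat.card G → p ≤ q) (P : Sylow p G) {d : ℕ} (hd : 1 ≤ d)
    (hdP : p ^ d < Nat.card (P : Subgroup G))
    (h : ∀ E : Subgroup G, E ≤ (P : Subgroup G) → (Nat.card E = p ^ d ∨ (p ^ d = 2 ∧ Nat.card E = 4)) →
      ∀ e ∈ E, ∀ g : G, g * e * g⁻¹ ∈ (P : Subgroup G) → g * e * g⁻¹ ∈ E) :
    Cfsg.HasNormalPComplement p G := by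
  refine tate P ?_
  intro M0 hM0n hM0
  have hPp := P.isPGroup'
  obtain ⟨m, hm⟩ := IsPGroup.iff_card.mp hPp
  set M : Subgroup G := M0.map (P : Subgroup G).subtype with hM
  have hMP : M ≤ (P : Subgroup G) := Subgroup.map_subtype_le M0
  have hM1 : M.subgroupOf (P : Subgroup G) = M0 :=
    Subgroup.comap_map_eq_self_of_injective (P : Subgroup G).subtype_injective M0
  have hMidx : M.relIndex (P : Subgroup G) = p := by
    rw [Subgroup.relIndex, hM1, hM0]
  have hMcard : Nat.card M * p = p ^ m := by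
    have h1 := Subgroup.card_mul_index M0
    have h2 : Nat.card M = Nat.card M0 := by
      rw [hM]; exact Subgroup.card_map_of_injective (P : Subgroup G).subtype_injective
    rw [hM0, ← h2, hm] at h1
    exact h1
  have hPM : (P : Subgroup G) ≤ normalizer (M : Set G) := le_normalizer_of_index hMP hPp hMidx
  have hdm : d < m := by
    rw [hm] at hdP; exact (Nat.pow_lt_pow_iff_right hp.out.one_lt).1 hdP
  have hMc : Nat.card M = p ^ (m - 1) := by
    have h5 : p ^ m = p ^ (m - 1) * p := by rw [← pow_succ]; congr 1; omega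
    rw [h5] at hMcard
    exact Nat.eq_of_mul_eq_mul_right hp.out.pos hMcard
  have hcomm : ⁅(P : Subgroup G), (P : Subgroup G)⁆ ≤ M := by
    have h1 : _root_.commutator (P : Subgroup G) ≤ M0 := by
      have hcard : Nat.card ((P : Subgroup G) ⧸ M0) = p := hM0
      have hcyc : IsCyclic ((P : Subgroup G) ⧸ M0) := isCyclic_of_prime_card (p := p) hcard
      have hcg : ∀ a b : (P : Subgroup G) ⧸ M0, a * b = b * a := fun a b => by
        let _ := hcyc.commGroup; exact mul_comm a b
      rw [commutator_def, Subgroup.commutator_le]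
      intro a _ b _
      rw [← QuotientGroup.eq_one_iff]
      have : ((⁅a, b⁆ : (P : Subgroup G)) : (P : Subgroup G) ⧸ M0) = ⁅(a : (P : Subgroup G) ⧸ M0), (b : (P : Subgroup G) ⧸ M0)⁆ := rfl
      rw [this, commutatorElement_eq_one_iff_mul_comm]
      exact hcg _ _
    have h2 := Subgroup.map_mono (f := (P : Subgroup G).subtype) h1
    rwa [commutator_def, Subgroup.map_commutator, ← MonoidHom.range_eq_map, Subgroup.range_subtype] at h2
  have hfus := fusion_mod P hcomm ?_
  · have h1 := focal_pres P hMP hfus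
    intro x hx
    rw [← hM1]
    exact h1 ⟨x.2, hx⟩
  intro Q hQP a ha hao x hx
  have hQp : IsPGroup p Q := hPp.to_le hQP
  have hao2 : Nat.Coprime (orderOf a) (p - 1) :=
    coprime_pred hp.out (fun q hq hqa => hmin q hq (hqa.trans (orderOf_dvd_natCard a)))
  by_cases hQd : p ^ d < Nat.card Q
  · have h1 : a ∈ centralizer (Q : Set G) := by
      refine act_trivial hQp ha hao hao2 hd hQd ?_
      intro E hE hEc
      apply mem_normalizer_of_forall
      intro e he
      exact h E (hE.trans hQP) hEc e he a (hQP ((Subgroup.mem_normalizer_iff.1 ha e).1 (hE he)))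
    have h2 : x * a = a * x := h1 x hx
    have h3 : a * x * a⁻¹ * x⁻¹ = 1 := by rw [← h2]; group
    rw [h3]; exact one_mem _
  · push Not at hQd
    by_cases hQM : Q ≤ M
    · exact M.mul_mem (hQM ((Subgroup.mem_normalizer_iff.1 ha x).1 hx)) (M.inv_mem (hQM hx))
    · have hle : M ⊓ Q ≤ M := inf_le_left
      obtain ⟨j, hj⟩ := IsPGroup.iff_card.mp (hPp.to_le (hle.trans hMP))
      have hjd : j ≤ d := by
        have h1 : Nat.card ↥(M ⊓ Q) ≤ p ^ d := (Subgroup.card_le_of_le inf_le_right).trans hQd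
        rw [hj] at h1
        exact (Nat.pow_le_pow_iff_right hp.out.one_lt).1 h1
      obtain ⟨E, hE1, hEM, hE⟩ := exists_between hle (hPp.to_le hMP) hj hjd (by
        rw [hMc]; exact Nat.pow_le_pow_right hp.out.pos (by omega))
      have haMQ : a ∈ normalizer ((M ⊓ Q : Subgroup G) : Set G) := by
        apply mem_normalizer_of_forall
        rintro e ⟨heM, heQ⟩
        have h1 : a * e * a⁻¹ ∈ Q := (Subgroup.mem_normalizer_iff.1 ha e).1 heQ
        exact ⟨hEM (h E (hEM.trans hMP) (Or.inl hE) e (hE1 ⟨heM, heQ⟩) a (hQP h1)), h1⟩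
      have hidx : (M ⊓ Q).relIndex Q = p := by
        rw [Subgroup.inf_relIndex_right]
        have h1 : M.relIndex Q ∣ M.relIndex (P : Subgroup G) := by
          have hn : (M.subgroupOf (P : Subgroup G)).Normal := by rw [hM1]; exact hM0n
          have h2 := Subgroup.relIndex_dvd_index_of_normal (M.subgroupOf (P : Subgroup G)) (Q.subgroupOf (P : Subgroup G))
          rwa [Subgroup.relIndex_subgroupOf hQP] at h2
        rw [hMidx] at h1
        rcases (Nat.dvd_prime hp.out).1 h1 with h2 | h2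
        · exact absurd (Subgroup.relIndex_eq_one.1 h2) hQM
        · exact h2
      have h1 := index_act (M := M ⊓ Q) inf_le_right hidx (le_normalizer_of_index inf_le_right hQp hidx)
        ha haMQ hao hao2 x hx
      exact h1.1

theorem npc_of_cyclic [Finite G] {p : ℕ} [hp : Fact p.Prime]
    (hmin : ∀ q : ℕ, q.Prime → q ∣ Nat.card G → p ≤ q) (P : Sylow p G)
    (hc : IsCyclic (P : Subgroup G)) : Cfsg.HasNormalPComplement p G := by
  have hPp := P.isPGroup'
  rw [CfsgLib.TransFus.hasNPC_iff_pResidual]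
  have h1 : (P : Subgroup G) ⊓ Cfsg.pResidual p G ≤ ⊥ := by
    refine focal_pres P bot_le ?_
    refine fusion_mod P ?_ ?_
    · rw [Subgroup.commutator_le]
      intro a ha b hb
      let _ := hc.commGroup
      have := mul_comm (⟨a, ha⟩ : (P : Subgroup G)) ⟨b, hb⟩
      rw [Subgroup.mem_bot, commutatorElement_eq_one_iff_mul_comm]
      exact congrArg Subtype.val this
    · intro Q hQP a ha hao x hx
      have hao2 : Nat.Coprime (orderOf a) (p - 1) :=
        coprime_pred hp.out (fun q hq hqa => hmin q hq (hqa.trans (orderOf_dvd_natCard a)))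
      have hcQ : IsCyclic Q :=
        isCyclic_of_injective (Subgroup.inclusion hQP) (Subgroup.inclusion_injective hQP)
      have h2 := cyc_act (hPp.to_le hQP) hcQ ha hao hao2 x hx
      rw [h2, mul_inv_cancel]; exact one_mem _
  have hKn : (Cfsg.pResidual p G).Normal := CfsgLib.TransFus.pResidual_normal p
  have h2 : SylIn p ((P : Subgroup G) ⊓ Cfsg.pResidual p G) (Cfsg.pResidual p G) :=
    SylIn.inf_normal (SylIn.ofSylow P) le_top (by rw [Subgroup.normalizer_eq_top])
  have h3 := h2.idx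
  rw [eq_bot_iff.2 h1, Subgroup.relIndex_bot_left] at h3
  exact h3

theorem main [Finite G] {p : ℕ} [hp : Fact p.Prime]
    (hmin : ∀ q : ℕ, q.Prime → q ∣ Nat.card G → p ≤ q) (P : Sylow p G)
    (h : IsCyclic ↥(P : Subgroup G) ∨ ∃ D : Subgroup G, D ≤ (P : Subgroup G) ∧ 1 < Nat.card D ∧ Nat.card D < Nat.card (P : Subgroup G) ∧
      ∀ E : Subgroup G, E ≤ (P : Subgroup G) → (Nat.card E = Nat.card D ∨ (Nat.card D = 2 ∧ Nat.card E = 4)) →
        HP E) : Cfsg.HasNormalPComplement p G := by
  rcases h with h | ⟨D, hDP, hD1, hD2, hD⟩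
  · exact npc_of_cyclic hmin P h
  · obtain ⟨d, hd⟩ := IsPGroup.iff_card.mp (P.isPGroup'.to_le hDP)
    rw [hd] at hD1 hD2 hD
    have hd1 : 1 ≤ d := by
      rcases Nat.eq_zero_or_pos d with h0 | h0
      · rw [h0, pow_zero] at hD1; exact absurd hD1 (lt_irrefl 1)
      · exact h0
    exact npc_of_strong hmin P hd1 hD2 (fun E hE hEc => (hD E hE hEc).strong hE P.isPGroup')

end CfsgLib.LE11Hsub
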