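import Mathlib
import Cfsg.Agent.EqBase
import Cfsg.Agent.LibLE11Hsub
import Cfsg.Agent.LibSuper

/-! eigenvectors of operators of exponent `p - 1`; hypercyclically embedded `p`-subgroups -/

set_option autoImplicit false
open Subgroup
open scoped Pointwise commutatorElement

namespace CfsgLib.LE11Hyp

open CfsgLib.LE11Act CfsgLib.LE11Tate CfsgLib.FusionH12 CfsgLib.LE11Syl CfsgLib.LE11Hsub

universe u

/-- eigenvector for an automorphism of exponent `p - 1` of an elementary abelian `p`-group -/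
theorem exists_eigen {V : Type u} [CommGroup V] [Finite V] [Nontrivial V] {p : ℕ}
    [hp : Fact p.Prime] (hV : ∀ v : V, v ^ p = 1) (θ : V →* V)
    (hθ : ∀ v, (θ^[p - 1]) v = v) : ∃ v : V, v ≠ 1 ∧ ∃ k : ℕ, θ v = v ^ k := by
  classical
  let _ : Module (ZMod p) (Additive V) := AddCommGroup.zmodModule (n := p) (fun x => hV x.toMul)
  let T : Module.End (ZMod p) (Additive V) := (MonoidHom.toAdditive θ).toZModLinearMap p
  have hT : ∀ v : Additive V, T v = Additive.ofMul (θ v.toMul) := fun v => rfl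
  have hTp : T ^ (p - 1) = 1 := by
    ext v
    have h1 : ∀ n : ℕ, ∀ v : Additive V, (T ^ n) v = Additive.ofMul ((θ^[n]) v.toMul) := by
      intro n
      induction n with
      | zero => intro v; rfl
      | succ n ih =>
        intro v
        rw [pow_succ', Module.End.mul_apply, ih, hT, Function.iterate_succ_apply']
        rfl
    rw [h1, hθ]; rfl
  have hTp' : T ^ p = T := by
    have h1 := pow_succ T (p - 1)
    rw [Nat.sub_add_cancel hp.out.one_le, hTp, one_mul] at h1
    exact h1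
  have hdvd : minpoly (ZMod p) T ∣ (Polynomial.X ^ p - Polynomial.X : Polynomial (ZMod p)) := by
    apply minpoly.dvd
    simp only [map_sub, map_pow, Polynomial.aeval_X]
    rw [hTp', sub_self]
  have hne : (Polynomial.X ^ p - Polynomial.X : Polynomial (ZMod p)) ≠ 0 :=
    FiniteField.X_pow_card_sub_X_ne_zero (ZMod p) hp.out.one_lt
  have hsp : (minpoly (ZMod p) T).Splits :=
    Polynomial.Splits.of_dvd (GaloisField.splits_zmod_X_pow_sub_X p) hne hdvd
  have hfin : Module.Finite (ZMod p) (Additive V) := Module.Finite.of_finite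
  have hint : IsIntegral (ZMod p) T := Algebra.IsIntegral.isIntegral T
  have hnt : Nontrivial (Module.End (ZMod p) (Additive V)) := inferInstance
  have hdeg : (minpoly (ZMod p) T).degree ≠ 0 := (minpoly.degree_pos hint).ne'
  obtain ⟨μ, hμ⟩ := Polynomial.Splits.exists_eval_eq_zero hsp hdeg
  have hev := Module.End.hasEigenvalue_of_isRoot (f := T) (μ := μ) hμ
  obtain ⟨v, hv⟩ := hev.exists_hasEigenvector
  refine ⟨v.toMul, ?_, μ.val, ?_⟩
  · intro h; exact hv.2 (by rw [← ofMul_toMul v, h]; rfl)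
  · have h1 := hv.apply_eq_smul
    rw [hT] at h1
    have h2 : (μ • v : Additive V) = μ.val • v := by
      conv_lhs => rw [← ZMod.natCast_zmod_val μ]
      rw [Nat.cast_smul_eq_nsmul]
    rw [h2] at h1
    exact congrArg Additive.toMul h1

variable {G : Type u} [Group G]

/-- the subgroup generated by commutators and `(p - 1)`-st powers -/
def hh (p : ℕ) (G : Type u) [Group G] : Subgroup G :=
  Subgroup.closure ({g | ∃ a b : G, g = ⁅a, b⁆} ∪ {g | ∃ a : G, g = a ^ (p - 1)})

theorem comm_mem_hh (p : ℕ) (a b : G) : ⁅a, b⁆ ∈ hh p G := Subgroup.subset_closure (Or.inl ⟨a, b, rfl⟩)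

theorem pow_mem_hh (p : ℕ) (a : G) : a ^ (p - 1) ∈ hh p G := Subgroup.subset_closure (Or.inr ⟨a, rfl⟩)

theorem hh_normal (p : ℕ) (G : Type u) [Group G] : (hh p G).Normal := by
  refine ⟨fun n hn g => ?_⟩
  have h1 : g * n * g⁻¹ = ⁅g, n⁆ * n := by rw [commutatorElement_def]; group
  rw [h1]
  exact mul_mem (comm_mem_hh p g n) hn

theorem hh_le {p : ℕ} {B : Subgroup G} (h1 : ∀ a b : G, ⁅a, b⁆ ∈ B) (h2 : ∀ a : G, a ^ (p - 1) ∈ B) :
    hh p G ≤ B := by
  rw [hh, Subgroup.closure_le]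
  rintro g (⟨a, b, rfl⟩ | ⟨a, rfl⟩)
  · exact h1 a b
  · exact h2 a

theorem map_hh (p : ℕ) {H : Type*} [Group H] (f : G →* H) : (hh p G).map f ≤ hh p H := by
  rw [Subgroup.map_le_iff_le_comap]
  refine hh_le (fun a b => ?_) (fun a => ?_)
  · rw [Subgroup.mem_comap, map_commutatorElement]; exact comm_mem_hh p _ _
  · rw [Subgroup.mem_comap, map_pow]; exact pow_mem_hh p _

theorem hh_le_map (p : ℕ) {H : Type*} [Group H] (f : G →* H) (hf : Function.Surjective f) :
    hh p H ≤ (hh p G).map f := by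
  refine hh_le (fun a b => ?_) (fun a => ?_)
  · obtain ⟨a, rfl⟩ := hf a
    obtain ⟨b, rfl⟩ := hf b
    exact ⟨⁅a, b⁆, comm_mem_hh p a b, map_commutatorElement f a b⟩
  · obtain ⟨a, rfl⟩ := hf a
    exact ⟨a ^ (p - 1), pow_mem_hh p a, map_pow f a _⟩

/-- action of `hh` on a normal cyclic subgroup of order `p ^ (k + 1)` -/
theorem hh_cyc [Finite G] {p : ℕ} [hp : Fact p.Prime] {E : Subgroup G} [hE : E.Normal] (hc : IsCyclic E)
    {k : ℕ} (hcard : Nat.card E = p ^ (k + 1)) {g : G} (hg : g ∈ hh p G) :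
    (MulAut.conjNormal g : MulAut E) ^ (p ^ k) = 1 := by
  have hcomm : ∀ a b : MulAut E, a * b = b * a := by
    intro a b
    obtain ⟨e, he⟩ := hc
    have hext : ∀ φ ψ : MulAut E, φ e = ψ e → φ = ψ := by
      intro φ ψ h
      ext x
      obtain ⟨n, rfl⟩ := Subgroup.mem_zpowers_iff.1 (he x)
      rw [map_zpow, map_zpow, h]
    apply hext
    obtain ⟨n, hn⟩ := Subgroup.mem_zpowers_iff.1 (he (a e))
    obtain ⟨m, hm⟩ := Subgroup.mem_zpowers_iff.1 (he (b e))
    rw [MulAut.mul_apply, MulAut.mul_apply, ← hn, ← hm, map_zpow, map_zpow, ← hn, ← hm,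
      ← zpow_mul, ← zpow_mul, mul_comm]
  let B : Subgroup G :=
    { carrier := {g | (MulAut.conjNormal g : MulAut E) ^ (p ^ k) = 1}
      mul_mem' := by
        intro a b ha hb
        show (MulAut.conjNormal (a * b) : MulAut E) ^ (p ^ k) = 1
        have hcab : Commute (MulAut.conjNormal a : MulAut E) (MulAut.conjNormal b) := hcomm _ _
        have ha' : (MulAut.conjNormal a : MulAut E) ^ (p ^ k) = 1 := ha
        have hb' : (MulAut.conjNormal b : MulAut E) ^ (p ^ k) = 1 := hb
        rw [map_mul, hcab.mul_pow, ha', hb', one_mul]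
      one_mem' := by
        show (MulAut.conjNormal (1 : G) : MulAut E) ^ (p ^ k) = 1
        rw [map_one, one_pow]
      inv_mem' := by
        intro a ha
        show (MulAut.conjNormal (a⁻¹) : MulAut E) ^ (p ^ k) = 1
        rw [map_inv, inv_pow, ha, inv_one] }
  have : hh p G ≤ B := by
    refine hh_le (fun a b => ?_) (fun a => ?_)
    · show (MulAut.conjNormal ⁅a, b⁆ : MulAut E) ^ (p ^ k) = 1
      rw [map_commutatorElement, (commutatorElement_eq_one_iff_mul_comm).2 (hcomm _ _), one_pow]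
    · show (MulAut.conjNormal (a ^ (p - 1)) : MulAut E) ^ (p ^ k) = 1
      rw [map_pow, ← pow_mul]
      have h1 : Nat.card (MulAut E) = (p - 1) * p ^ k := by
        rw [hc.card_mulAut, hcard, Nat.totient_prime_pow hp.out (Nat.succ_pos k), mul_comm]; rfl
      rw [← h1]
      exact pow_card_eq_one'
  exact this hg

theorem hh_cyc_one [Finite G] {p : ℕ} [hp : Fact p.Prime] {E : Subgroup G} [hE : E.Normal]
    (hcard : Nat.card E = p) {g : G} (hg : g ∈ hh p G) : ∀ x ∈ E, g * x * g⁻¹ = x := by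
  intro x hx
  have h1 := hh_cyc (E := E) (isCyclic_of_prime_card (p := p) hcard) (k := 0) (by rw [hcard]; simp) hg
  rw [pow_zero, pow_one] at h1
  have h2 : ((MulAut.conjNormal g : MulAut E) ⟨x, hx⟩ : G) = g * x * g⁻¹ := rfl
  rw [← h2, h1]; rfl

theorem hh_cyc_coprime [Finite G] {p : ℕ} [hp : Fact p.Prime] {E : Subgroup G} [hE : E.Normal]
    (hEp : IsPGroup p E) (hc : IsCyclic E) {g : G} (hg : g ∈ hh p G)
    (ho : Nat.Coprime (orderOf g) p) : ∀ x ∈ E, g * x * g⁻¹ = x := by
  obtain ⟨k, hk⟩ := IsPGroup.iff_card.mp hEp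
  rcases Nat.eq_zero_or_pos k with h0 | h0
  · intro x hx
    rw [h0, pow_zero] at hk
    have : E = ⊥ := Subgroup.card_eq_one.1 hk
    rw [this, Subgroup.mem_bot] at hx
    rw [hx]; simp
  · obtain ⟨k, rfl⟩ : ∃ j, k = j + 1 := ⟨k - 1, by omega⟩
    have h1 := hh_cyc hc hk hg
    have h2 : orderOf (MulAut.conjNormal g : MulAut E) ∣ orderOf g := orderOf_map_dvd _ g
    have h3 : (MulAut.conjNormal g : MulAut E) = 1 := by
      rw [← orderOf_eq_one_iff]
      exact Nat.Coprime.eq_one_of_dvd (Nat.Coprime.coprime_dvd_left h2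
        (Nat.Coprime.coprime_dvd_right (orderOf_dvd_of_pow_eq_one h1) (Nat.Coprime.pow_right _ ho))) dvd_rfl
    intro x hx
    have h2 : ((MulAut.conjNormal g : MulAut E) ⟨x, hx⟩ : G) = g * x * g⁻¹ := rfl
    rw [← h2, h3]; rfl

/-- general version of `act_trivial` -/
theorem act_trivial_gen [Finite G] {p : ℕ} [hp : Fact p.Prime] {Q : Subgroup G} (hQ : IsPGroup p Q)
    {a : G} (ha : a ∈ normalizer (Q : Set G)) (h1 : Nat.Coprime (orderOf a) p)
    {d : ℕ} (hd : 1 ≤ d) (hcard : p ^ d < Nat.card Q)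
    (hcyc : ∀ E : Subgroup G, E ≤ Q → IsCyclic E → (Nat.card E = p ^ d ∨ (p ^ d = 2 ∧ Nat.card E = 4)) →
      ∀ x ∈ E, a * x * a⁻¹ = x)
    (hT : ∀ T : Subgroup G, T ≤ Q → ¬ IsCyclic T → Nat.card T = p ^ (d + 1) →
      a ∈ normalizer (T : Set G) ∧ ∀ M : Subgroup G, M ≤ T → M.relIndex T = p →
        ∀ x ∈ T, a * x * a⁻¹ * x⁻¹ ∈ M) : a ∈ centralizer (Q : Set G) := by
  have key : ∀ x ∈ Q, (x ^ p = 1 ∨ (p = 2 ∧ x ^ 4 = 1)) → a * x * a⁻¹ = x := by
    intro x hx hx'
    obtain ⟨j, hj⟩ : ∃ j, orderOf x = p ^ j := by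
      obtain ⟨j, hj⟩ := IsPGroup.iff_orderOf.mp hQ ⟨x, hx⟩
      exact ⟨j, by rwa [Subgroup.orderOf_mk] at hj⟩
    have hxQ : Subgroup.zpowers x ≤ Q := by rw [Subgroup.zpowers_le]; exact hx
    have hjcard : Nat.card (Subgroup.zpowers x) = p ^ j := by rw [Nat.card_zpowers, hj]
    by_cases hjd : j ≤ d
    · obtain ⟨E, hxE, hEQ, hE⟩ := exists_between hxQ hQ hjcard hjd hcard.le
      have hxE' : x ∈ E := hxE (Subgroup.mem_zpowers x)
      by_cases hEc : IsCyclic E
      · exact hcyc E hEQ hEc (Or.inl hE) x hxE'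
      · obtain ⟨T, hET, hTQ, hTc⟩ := exists_between hEQ hQ hE (Nat.le_succ d) (by
          obtain ⟨m, hm⟩ := IsPGroup.iff_card.mp hQ
          rw [hm] at hcard ⊢
          have := (Nat.pow_lt_pow_iff_right hp.out.one_lt).1 hcard
          exact Nat.pow_le_pow_right hp.out.pos this)
        have hTn : ¬ IsCyclic T := fun h => hEc
          (isCyclic_of_injective (Subgroup.inclusion hET) (Subgroup.inclusion_injective hET))
        obtain ⟨haT, hM⟩ := hT T hTQ hTn hTc
        have h3 : a ∈ centralizer (T : Set G) := max_act (hQ.to_le hTQ) haT h1 hM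
        have h4 := h3 x (hET hxE')
        rw [← h4, mul_inv_cancel_right]
    · push Not at hjd
      have hp2 : p = 2 ∧ x ^ 4 = 1 := by
        rcases hx' with h3 | h3
        · exfalso
          have h4 := orderOf_dvd_of_pow_eq_one h3
          rw [hj] at h4
          have h5 : p ^ j ≤ p ^ 1 := by rw [pow_one]; exact Nat.le_of_dvd hp.out.pos h4
          have := (Nat.pow_le_pow_iff_right hp.out.one_lt).1 h5
          omega
        · exact h3
      obtain ⟨h3, h4⟩ := hp2
      subst h3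
      have h5 := orderOf_dvd_of_pow_eq_one h4
      rw [hj] at h5
      have h6 : 2 ^ j ≤ 2 ^ 2 := Nat.le_of_dvd (by norm_num) h5
      have h7 := (Nat.pow_le_pow_iff_right (by norm_num : 1 < 2)).1 h6
      have h8 : d = 1 := by omega
      have h9 : j = 2 := by omega
      subst h8
      subst h9
      exact hcyc _ hxQ inferInstance (Or.inr ⟨by norm_num, by rw [hjcard]; norm_num⟩) x
        (Subgroup.mem_zpowers x)
  have h3 : Subgroup.zpowers a ≤ centralizer (Q : Set G) := by
    refine CfsgLib.LE11Om.cop_omega' hp.out hQ (by rw [Subgroup.zpowers_le]; exact ha)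
      (by rw [Nat.card_zpowers]; exact h1) ?_
    intro x hx hx' b hb
    have h4 : Commute a x := by
      have := key x hx hx'
      show a * x = x * a
      rw [← mul_inv_eq_iff_eq_mul]; exact this
    obtain ⟨k, rfl⟩ := Subgroup.mem_zpowers_iff.1 hb
    exact h4.zpow_left k
  exact h3 (Subgroup.mem_zpowers a)

end CfsgLib.LE11Hyp
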