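import Mathlib
import Cfsg.Agent.EqBase
import Cfsg.Agent.LibLE11Hyp
import Cfsg.Agent.LibSolvNilp

/-! hypercyclically embedded normal `p`-subgroups and supersolvability (S3032) -/

set_option autoImplicit false
open Subgroup
open scoped Pointwise commutatorElement

namespace CfsgLib.LE11Hyp

open CfsgLib.LE11Act CfsgLib.LE11Tate CfsgLib.FusionH12 CfsgLib.LE11Syl CfsgLib.LE11Hsub

universe u
variable {G : Type u} [Group G]

theorem card_mul_relIndex' {F K : Subgroup G} (h : F ≤ K) :
    Nat.card F * F.relIndex K = Nat.card K := by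
  have h1 := Subgroup.card_mul_index (F.subgroupOf K)
  rwa [Nat.card_congr (Subgroup.subgroupOfEquivOfLe h).toEquiv] at h1

theorem isSyl_sup [Finite G] {r : ℕ} [hr : Fact r.Prime] {F N : Subgroup G} [hNn : N.Normal]
    (hF : IsPGroup r F) (hN : ¬ r ∣ Nat.card N) : IsSyl r F (F ⊔ N) := by
  refine ⟨le_sup_left, hF, ?_⟩
  intro hd
  have h1 := CfsgLib.SolvBasic.card_sup_of_normal N F
  have h2 : Nat.card F * F.relIndex (F ⊔ N) = Nat.card ↥(F ⊔ N) :=
    card_mul_relIndex' le_sup_left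
  rw [sup_comm N F, ← h2] at h1
  have h3 : F.relIndex (F ⊔ N) ∣ Nat.card N := by
    refine ⟨Nat.card ↥(N ⊓ F), ?_⟩
    have : Nat.card F * (F.relIndex (F ⊔ N) * Nat.card ↥(N ⊓ F)) = Nat.card F * Nat.card N := by
      rw [← mul_assoc, h1, mul_comm]
    exact (Nat.eq_of_mul_eq_mul_left Nat.card_pos this).symm
  exact hN (hd.trans h3)

/-- the `H`-property passes to quotients by normal `p'`-subgroups -/
theorem HP.map_quot [Finite G] {r : ℕ} [hr : Fact r.Prime] {N F : Subgroup G} [hNn : N.Normal]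
    (hF : IsPGroup r F) (hN : ¬ r ∣ Nat.card N) (h : HP F) : HP (F.map (QuotientGroup.mk' N)) := by
  intro gb xb hx
  obtain ⟨⟨fb, ⟨f, hf, rfl⟩, hxb⟩, hx2⟩ := hx
  obtain ⟨g, rfl⟩ := QuotientGroup.mk'_surjective N gb
  set x := g * f * g⁻¹ with hxdef
  have hxb' : xb = QuotientGroup.mk' N x := by
    rw [← hxb, hxdef, map_mul, map_mul, map_inv]; rfl
  rw [hxb'] at hx2 ⊢
  set K := F ⊔ N with hK
  have hcomap : (F.map (QuotientGroup.mk' N)).comap (QuotientGroup.mk' N) = K := by
    rw [Subgroup.comap_map_eq, QuotientGroup.ker_mk']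
  have hxK : x ∈ normalizer (K : Set G) := by
    apply mem_normalizer_of_forall
    intro k hk
    rw [← hcomap, Subgroup.mem_comap] at hk ⊢
    rw [map_mul, map_mul, map_inv]
    exact (Subgroup.mem_normalizer_iff.1 hx2 _).1 hk
  have hxp : IsPGroup r (Subgroup.zpowers x) := by
    have h1 : Subgroup.zpowers x = (Subgroup.zpowers f).map (MulAut.conj g).toMonoidHom := by
      rw [MonoidHom.map_zpowers]; rfl
    rw [h1]
    exact (hF.to_le (by rw [Subgroup.zpowers_le]; exact hf)).map _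
  set L := K ⊔ Subgroup.zpowers x with hL
  have hLK : L ≤ normalizer (K : Set G) :=
    sup_le Subgroup.le_normalizer (by rw [Subgroup.zpowers_le]; exact hxK)
  obtain ⟨S, hS, hxS⟩ := exists_isSyl_ge (p := r) (M := L) (Q := Subgroup.zpowers x) le_sup_right hxp
  have hSK := hS.inf_of_normal (N := K) le_sup_left hLK
  obtain ⟨m, hm, hmS⟩ := hSK.conj_eq (isSyl_sup hF hN)
  have hxS' : x ∈ S := hxS (Subgroup.mem_zpowers x)
  have hxSK : x ∈ normalizer ((S ⊓ K : Subgroup G) : Set G) := by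
    apply mem_normalizer_of_forall
    rintro y ⟨hy1, hy2⟩
    exact ⟨S.mul_mem (S.mul_mem hxS' hy1) (S.inv_mem hxS'), (Subgroup.mem_normalizer_iff.1 hxK y).1 hy2⟩
  have h1 : m⁻¹ * x * m ∈ F := by
    apply h (m⁻¹ * g)
    constructor
    · refine ⟨f, hf, ?_⟩
      show m⁻¹ * g * f * (m⁻¹ * g)⁻¹ = m⁻¹ * x * m
      rw [hxdef]; group
    · show m⁻¹ * x * m ∈ normalizer (F : Set G)
      apply mem_normalizer_of_forall
      intro y hy
      have h2 : m * y * m⁻¹ ∈ S ⊓ K := by
        rw [← hmS, mem_conj_smul]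
        have : m⁻¹ * (m * y * m⁻¹) * m = y := by group
        rw [this]; exact hy
      have h3 := (Subgroup.mem_normalizer_iff.1 hxSK _).1 h2
      rw [← hmS, mem_conj_smul] at h3
      have : m⁻¹ * (x * (m * y * m⁻¹) * x⁻¹) * m = m⁻¹ * x * m * y * (m⁻¹ * x * m)⁻¹ := by group
      rwa [this] at h3
  have h2 : x ∈ K := by
    have h3 : m * (m⁻¹ * x * m) * m⁻¹ ∈ K := K.mul_mem (K.mul_mem hm ((le_sup_left : F ≤ K) h1)) (K.inv_mem hm)
    have : m * (m⁻¹ * x * m) * m⁻¹ = x := by group
    rwa [this] at h3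
  rw [← hcomap] at h2
  exact h2

/-- minimal normal `p`-subgroups on which the `p'`-part of `hh` acts trivially are cyclic -/
theorem min_cyclic [Finite G] {p : ℕ} [hp : Fact p.Prime] {V : Subgroup G} [hVn : V.Normal]
    (hVp : IsPGroup p V) (hV : V ≠ ⊥) (hmin : ∀ K : Subgroup G, K.Normal → K ≤ V → K = ⊥ ∨ K = V)
    (hact : ∀ a ∈ hh p G, Nat.Coprime (orderOf a) p → a ∈ centralizer (V : Set G)) : IsCyclic V := by
  have hs : Group.IsSolvable V := CfsgLib.BGPi.solvable_of_isPGroup hp.out hVp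
  obtain ⟨q, hq, hcomm, hexp, -⟩ := CfsgLib.Cores.minimal_normal_elementary V hV hmin hs
  have hnt : Nontrivial V := (nontrivial_iff_ne_bot V).mpr hV
  have hqp : q = p := by
    obtain ⟨v, hv⟩ := exists_ne (1 : V)
    obtain ⟨k, hk⟩ := IsPGroup.iff_orderOf.mp hVp v
    have h1 : orderOf v ∣ q := orderOf_dvd_of_pow_eq_one (Subtype.ext (by simpa using hexp v v.2))
    rcases (Nat.dvd_prime hq).1 h1 with h2 | h2
    · exact absurd (orderOf_eq_one_iff.1 h2) hv
    · rw [h2] at hk
      have hk0 : k ≠ 0 := by rintro rfl; rw [pow_zero] at hk; exact hq.one_lt.ne' hk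
      exact ((Nat.prime_dvd_prime_iff_eq hp.out hq).1 (by rw [hk]; exact dvd_pow_self p hk0)).symm
  subst hqp
  have hVc : ∀ a ∈ V, ∀ b ∈ V, a * b = b * a := by
    intro a ha b hb
    exact congrArg Subtype.val (hcomm.is_comm.comm ⟨a, ha⟩ ⟨b, hb⟩)
  -- `hh` centralizes `V`
  have hHn := hh_normal q G
  have hHV : hh q G ≤ centralizer (V : Set G) := by
    obtain ⟨S, -, hS⟩ := SylIn.exists_ge (p := q) (P := (⊥ : Subgroup G)) (H := hh q G) IsPGroup.of_bot bot_le
    set W := V ⊓ centralizer (S : Set G) with hW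
    have hWne : W ≠ ⊥ := by
      set L := V ⊔ S with hL
      have hLp : IsPGroup q L := hVp.to_sup_of_normal_left hS.pg
      have := hLp.isNilpotent
      have hVL : V.subgroupOf L ≠ ⊥ := by
        intro h0
        rw [Subgroup.subgroupOf_eq_bot] at h0
        exact hV (by have := h0.eq_bot; rwa [inf_of_le_left (le_sup_left : V ≤ L)] at this)
      have h1 := CfsgLib.SolvNilp.inf_center_ne_bot (V.subgroupOf L) hVL
      obtain ⟨z, hz1⟩ := Subgroup.ne_bot_iff_exists_ne_one.1 h1
      intro h0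
      apply hz1
      have h2 : ((z : L) : G) ∈ W := by
        refine ⟨z.2.1, ?_⟩
        show ((z : L) : G) ∈ centralizer (S : Set G)
        rw [Subgroup.mem_centralizer_iff]
        intro s hs
        have := Subgroup.mem_center_iff.1 z.2.2 ⟨s, (le_sup_right : S ≤ L) hs⟩
        exact congrArg Subtype.val this
      rw [h0, Subgroup.mem_bot] at h2
      exact Subtype.ext (Subtype.ext h2)
    have h1 : hh q G ≤ centralizer (W : Set G) := by
      refine le_of_sylIn hS ?_ ?_
      · rw [Subgroup.le_centralizer_iff]; exact inf_le_right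
      · intro x hx hxo
        exact Subgroup.centralizer_le (inf_le_left : W ≤ V) (hact x hx hxo)
    have h2 : V ⊓ centralizer (hh q G : Set G) = V := by
      rcases hmin (V ⊓ centralizer (hh q G : Set G)) inferInstance inf_le_left with h3 | h3
      · exfalso
        apply hWne
        rw [eq_bot_iff, ← h3]
        exact le_inf inf_le_left (Subgroup.le_centralizer_iff.1 h1)
      · exact h3
    rw [Subgroup.le_centralizer_iff, ← h2]
    exact inf_le_right
  -- eigenvectors
  have hscal : ∀ g : G, ∃ k : ℕ, ∀ v ∈ V, g * v * g⁻¹ = v ^ k := by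
    intro g
    let cg : CommGroup V := { V.toGroup with mul_comm := fun a b => Subtype.ext (hVc a a.2 b b.2) }
    let θ : V →* V := (MulAut.conjNormal g : MulAut V).toMonoidHom
    have hθ : ∀ v : V, ((θ v : V) : G) = g * v * g⁻¹ := fun v => rfl
    have hθn : ∀ n : ℕ, ∀ v : V, (((θ^[n]) v : V) : G) = g ^ n * v * (g ^ n)⁻¹ := by
      intro n
      induction n with
      | zero => intro v; simp
      | succ n ih => intro v; rw [Function.iterate_succ_apply', hθ, ih, pow_succ']; group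
    obtain ⟨v, hv1, k, hk⟩ := exists_eigen (V := V) (p := q) (fun v => Subtype.ext (by simpa using hexp v v.2)) θ
      (by
        intro v
        apply Subtype.ext
        rw [hθn]
        have h1 := hHV (pow_mem_hh q g) (v : G) v.2
        rw [← h1, mul_inv_cancel_right])
    refine ⟨k, ?_⟩
    let E : Subgroup G :=
      { carrier := {x | x ∈ V ∧ g * x * g⁻¹ = x ^ k}
        mul_mem' := by
          rintro a b ⟨ha, ha'⟩ ⟨hb, hb'⟩
          refine ⟨V.mul_mem ha hb, ?_⟩
          have hc : Commute a b := hVc a ha b hb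
          rw [hc.mul_pow, ← ha', ← hb']; group
        one_mem' := ⟨V.one_mem, by simp⟩
        inv_mem' := by
          rintro a ⟨ha, ha'⟩
          refine ⟨V.inv_mem ha, ?_⟩
          rw [inv_pow, ← ha']; group }
    have hEn : E.Normal := by
      refine ⟨?_⟩
      rintro x ⟨hx, hx'⟩ h
      refine ⟨hVn.conj_mem x hx h, ?_⟩
      have h1 : ⁅h⁻¹, g⁻¹⁆ * x = x * ⁅h⁻¹, g⁻¹⁆ := (hHV (comm_mem_hh q h⁻¹ g⁻¹) x hx).symm
      have h2 : g * h = h * g * ⁅g⁻¹, h⁻¹⁆ := by rw [commutatorElement_def]; group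
      have h3 : ⁅g⁻¹, h⁻¹⁆ * x * ⁅g⁻¹, h⁻¹⁆⁻¹ = x := by
        have := (hHV (comm_mem_hh q g⁻¹ h⁻¹) x hx).symm
        rw [this, mul_inv_cancel_right]
      calc g * (h * x * h⁻¹) * g⁻¹ = (g * h) * x * (g * h)⁻¹ := by group
        _ = (h * g * ⁅g⁻¹, h⁻¹⁆) * x * (h * g * ⁅g⁻¹, h⁻¹⁆)⁻¹ := by rw [← h2]
        _ = h * g * (⁅g⁻¹, h⁻¹⁆ * x * ⁅g⁻¹, h⁻¹⁆⁻¹) * g⁻¹ * h⁻¹ := by group
        _ = h * (g * x * g⁻¹) * h⁻¹ := by rw [h3]; group
        _ = (h * x * h⁻¹) ^ k := by rw [hx', conj_pow]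
    have hEV : E = V := by
      rcases hmin E hEn (fun x hx => hx.1) with h1 | h1
      · exfalso
        apply hv1
        have h2 : (v : G) ∈ E := by
          refine ⟨v.2, ?_⟩
          rw [← hθ, hk]; rfl
        rw [h1, Subgroup.mem_bot] at h2
        exact Subtype.ext h2
      · exact h1
    intro x hx
    rw [← hEV] at hx
    exact hx.2
  obtain ⟨v, hv⟩ := exists_ne (1 : V)
  have hZn : (Subgroup.zpowers (v : G)).Normal := by
    refine ⟨?_⟩
    rintro x ⟨j, rfl⟩ g
    obtain ⟨k, hk⟩ := hscal g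
    have h1 : (v : G) ^ j ∈ V := V.zpow_mem v.2 j
    show g * (v : G) ^ j * g⁻¹ ∈ _
    rw [hk _ h1]
    exact Subgroup.pow_mem _ (Subgroup.zpow_mem _ (Subgroup.mem_zpowers _) _) _
  have hZV : Subgroup.zpowers (v : G) = V := by
    rcases hmin _ hZn (by rw [Subgroup.zpowers_le]; exact v.2) with h1 | h1
    · exfalso
      apply hv
      rw [Subgroup.zpowers_eq_bot] at h1
      exact Subtype.ext h1
    · exact h1
  rw [← hZV]
  infer_instance

/-- hypercyclic embedding -/
theorem hyper : ∀ (n : ℕ) (G : Type u) [Group G] [Finite G] (p : ℕ) [Fact p.Prime] (Q : Subgroup G)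
    [Q.Normal], Nat.card Q ≤ n → IsPGroup p Q →
    (∀ a ∈ hh p G, Nat.Coprime (orderOf a) p → a ∈ centralizer (Q : Set G)) →
    Cfsg.IsSupersolvable (G ⧸ Q) → Cfsg.IsSupersolvable G := by
  intro n
  induction n with
  | zero =>
    intro G _ _ p _ Q _ hn
    exact absurd hn (by have : 0 < Nat.card Q := Nat.card_pos; omega)
  | succ n ih =>
    intro G _ _ p hp Q hQn hn hQp hact hss
    by_cases hQ : Q = ⊥
    · subst hQ
      exact CfsgLib.Super.of_equiv (QuotientGroup.quotientBot) hss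
    obtain ⟨V, hVn, hVne, hVQ, hmin⟩ := CfsgLib.SolvBasic.exists_minimal_normal Q hQ
    have hVp : IsPGroup p V := hQp.to_le hVQ
    have hVc : IsCyclic V := min_cyclic hVp hVne hmin
      (fun a ha hao => Subgroup.centralizer_le hVQ (hact a ha hao))
    set f := QuotientGroup.mk' V with hf
    have hfs : Function.Surjective f := QuotientGroup.mk'_surjective V
    have hQ1n : (Q.map f).Normal := hQn.map f hfs
    have hcard : Nat.card (Q.map f) ≤ n := by
      have h1 := CfsgLib.SolvBasic.card_map_mk'_mul_card_of_le V Q hVQ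
      have h2 : 1 < Nat.card V := by
        have : Nontrivial V := (nontrivial_iff_ne_bot V).mpr hVne
        exact Finite.one_lt_card
      have h3 : 0 < Nat.card (Q.map f) := Nat.card_pos
      nlinarith
    have hss' : Cfsg.IsSupersolvable ((G ⧸ V) ⧸ Q.map f) :=
      CfsgLib.Super.of_equiv (QuotientGroup.quotientQuotientEquivQuotient V Q hVQ).symm hss
    have h1 : Cfsg.IsSupersolvable (G ⧸ V) := by
      refine ih (G ⧸ V) p (Q.map f) hcard (hQp.map f) ?_ hss'
      intro a ha hao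
      obtain ⟨b, hb, rfl⟩ := hh_le_map p f hfs ha
      obtain ⟨s, hs, t, ht, hst, ⟨k, hk⟩, hto⟩ := CfsgLib.TransFus.exists_p_p'_decomp p b
      have hbH : Subgroup.zpowers b ≤ hh p G := by rw [Subgroup.zpowers_le]; exact hb
      have h2 : f s = 1 := by
        obtain ⟨j, rfl⟩ := Subgroup.mem_zpowers_iff.1 hs
        rw [← orderOf_eq_one_iff]
        have h3 : orderOf (f (b ^ j)) ∣ p ^ k := by rw [← hk]; exact orderOf_map_dvd f _
        have h4 : orderOf (f (b ^ j)) ∣ orderOf (f b) := by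
          rw [map_zpow]
          exact orderOf_dvd_of_mem_zpowers (Subgroup.zpow_mem _ (Subgroup.mem_zpowers _) j)
        exact Nat.Coprime.eq_one_of_dvd (Nat.Coprime.coprime_dvd_left h4
          (Nat.Coprime.coprime_dvd_right h3 (Nat.Coprime.pow_right k hao))) dvd_rfl
      have h3 : f b = f t := by
        conv_lhs => rw [hst, map_mul, h2, one_mul]
      rw [h3]
      have h4 := hact t (hbH ht) hto
      rw [Subgroup.mem_centralizer_iff]
      rintro _ ⟨x, hx, rfl⟩
      rw [← map_mul, ← map_mul, h4 x hx]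
    exact CfsgLib.Super.of_cyclic_normal V h1

end CfsgLib.LE11Hyp
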