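import Mathlib
import Cfsg.Agent.EqBase
import Cfsg.Agent.LibLE11Hyp2

/-! Asaad-type supersolvability criterion (S3032) -/

set_option autoImplicit false
open Subgroup
open scoped Pointwise commutatorElement

namespace CfsgLib.LE11Hyp

open CfsgLib.LE11Act CfsgLib.LE11Tate CfsgLib.FusionH12 CfsgLib.LE11Syl CfsgLib.LE11Hsub

universe u
variable {G : Type u} [Group G]

def HypE (E : Subgroup G) : Prop :=
  ∀ (p : ℕ), p.Prime → ∀ P : Subgroup G, P ≤ E → IsPGroup p P → ¬ p ∣ P.relIndex E → ¬ IsCyclic ↥P →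
      ∃ D : Subgroup G, D ≤ P ∧ 1 < Nat.card D ∧ Nat.card D < Nat.card P ∧
        ∀ F : Subgroup G, F ≤ P → (Nat.card F = Nat.card D ∨ (Nat.card D = 2 ∧ Nat.card F = 4)) → HP F

theorem conj_smul_normal [Finite G] {N : Subgroup G} (e : G) (h : e ∈ normalizer (N : Set G)) :
    MulAut.conj e • N = N := conj_smul_eq_iff.2 h

theorem relIndex_mul {A B C : Subgroup G} (h1 : A ≤ B) (h2 : B ≤ C) :
    A.relIndex C = A.relIndex B * B.relIndex C := (Subgroup.relIndex_mul_relIndex A B C h1 h2).symm

/-- normality of the normal Sylow subgroup of a normal subgroup -/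
theorem syl_norm [Finite G] {q : ℕ} [Fact q.Prime] {Q K : Subgroup G} (hQ : IsSyl q Q K)
    (hKQ : K ≤ normalizer (Q : Set G)) : normalizer (K : Set G) ≤ normalizer (Q : Set G) := by
  intro e he
  have h1 := hQ.conj e
  rw [conj_smul_normal e he] at h1
  obtain ⟨m, hm, hmQ⟩ := h1.conj_eq hQ
  rw [conj_smul_normal m (hKQ hm)] at hmQ
  rw [← conj_smul_eq_iff]
  exact hmQ.symm

theorem tower [Finite G] : ∀ (n : ℕ) (E : Subgroup G), Nat.card E ≤ n → HypE E → E ≠ ⊥ →
    ∃ q : ℕ, q.Prime ∧ ∃ Q : Subgroup G, Q ≠ ⊥ ∧ IsSyl q Q E ∧ E ≤ normalizer (Q : Set G) := by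
  intro n
  induction n with
  | zero => intro E hn; exact absurd hn (by have : 0 < Nat.card E := Nat.card_pos; omega)
  | succ n ih =>
    intro E hn hE hEne
    have hcard1 : Nat.card E ≠ 1 := fun h => hEne (Subgroup.card_eq_one.1 h)
    set p := (Nat.card E).minFac with hpdef
    have hpp : p.Prime := Nat.minFac_prime hcard1
    have : Fact p.Prime := ⟨hpp⟩
    have hmin : ∀ q : ℕ, q.Prime → q ∣ Nat.card E → p ≤ q := fun q hq hqd =>
      Nat.minFac_le_of_dvd hq.two_le hqd
    obtain ⟨P0⟩ : Nonempty (Sylow p E) := inferInstance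
    set P : Subgroup G := (P0 : Subgroup E).map E.subtype with hP
    have hPs : IsSyl p P E := isSyl_map P0
    have hPsub : P.subgroupOf E = (P0 : Subgroup E) :=
      Subgroup.comap_map_eq_self_of_injective E.subtype_injective _
    have hcardmap : ∀ X : Subgroup E, Nat.card (X.map E.subtype) = Nat.card X := fun X =>
      Subgroup.card_map_of_injective E.subtype_injective
    have hHP : ∀ F : Subgroup E, HP (F.map E.subtype) → HP F := by
      intro F hF g x hx
      obtain ⟨⟨f, hf, rfl⟩, hx2⟩ := hx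
      have h1 : ((g * f * g⁻¹ : E) : G) ∈ F.map E.subtype := by
        apply hF (g : G)
        refine ⟨⟨f, ⟨f, hf, rfl⟩, rfl⟩, ?_⟩
        show ((g * f * g⁻¹ : E) : G) ∈ normalizer ((F.map E.subtype : Subgroup G) : Set G)
        apply mem_normalizer_of_forall
        rintro _ ⟨y, hy, rfl⟩
        have h2 : (g * f * g⁻¹) * y * (g * f * g⁻¹)⁻¹ ∈ F :=
          (Subgroup.mem_normalizer_iff.1 hx2 y).1 hy
        exact ⟨_, h2, rfl⟩
      obtain ⟨y, hy, hyx⟩ := h1
      have : y = g * f * g⁻¹ := Subtype.ext hyx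
      show g * f * g⁻¹ ∈ F
      rw [← this]; exact hy
    have hnpc : Cfsg.HasNormalPComplement p E := by
      refine main hmin P0 ?_
      by_cases hc : IsCyclic (P0 : Subgroup E)
      · exact Or.inl hc
      · right
        have hc' : ¬ IsCyclic P := by
          intro h
          apply hc
          exact isCyclic_of_surjective ((P0 : Subgroup E).equivMapOfInjective E.subtype E.subtype_injective).symm
            (MulEquiv.surjective _)
        obtain ⟨D, hDP, hD1, hD2, hD⟩ := hE p hpp P hPs.1 hPs.2.1 hPs.2.2 hc'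
        have hDE : D ≤ E := hDP.trans hPs.1
        have hDc : Nat.card (D.subgroupOf E) = Nat.card D :=
          Nat.card_congr (Subgroup.subgroupOfEquivOfLe hDE).toEquiv
        refine ⟨D.subgroupOf E, ?_, by rw [hDc]; exact hD1, by rw [hDc, ← hcardmap]; exact hD2, ?_⟩
        · rw [← hPsub]; exact Subgroup.comap_mono hDP
        · intro F hF hFc
          apply hHP
          refine hD _ (Subgroup.map_mono hF) ?_
          rw [hcardmap, ← hDc]; exact hFc
    obtain ⟨P1, K0, hK0n, hK0c⟩ := hnpc
    have hidx : K0.index = Nat.card (P1 : Subgroup E) := hK0c.symm.index_eq_card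
    obtain ⟨k, hk⟩ := IsPGroup.iff_card.mp P1.isPGroup'
    have hK0p : ¬ p ∣ Nat.card K0 := by
      rw [← hK0c.index_eq_card]; exact P1.not_dvd_index
    by_cases hK0 : K0 = ⊥
    · -- `E` is a `p`-group
      have hEp : IsPGroup p E := by
        apply IsPGroup.of_card (n := k)
        rw [← hk, ← hidx, hK0, Subgroup.index_bot]
      exact ⟨p, hpp, E, hEne, ⟨le_rfl, hEp, by rw [Subgroup.relIndex_self]; exact hpp.one_lt.ne' ∘ Nat.dvd_one.1⟩,
        Subgroup.le_normalizer⟩
    · set K : Subgroup G := K0.map E.subtype with hK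
      have hKE : K ≤ E := Subgroup.map_subtype_le K0
      have hKsub : K.subgroupOf E = K0 := Subgroup.comap_map_eq_self_of_injective E.subtype_injective _
      have hEK : E ≤ normalizer (K : Set G) := by
        apply (Subgroup.normal_subgroupOf_iff_le_normalizer hKE).1
        rw [hKsub]; exact hK0n
      have hKidx : K.relIndex E = p ^ k := by
        rw [Subgroup.relIndex, hKsub, hidx, hk]
      have hKne : K ≠ ⊥ := by
        intro h; apply hK0; rwa [hK, Subgroup.map_eq_bot_iff_of_injective _ E.subtype_injective] at h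
      have hKlt : Nat.card K ≤ n := by
        have h1 := card_mul_relIndex' hKE
        have h2 : 1 < p ^ k := by
          have hk0 : k ≠ 0 := by
            rintro rfl
            rw [pow_zero] at hKidx
            rw [hKidx, mul_one] at h1
            apply hK0p
            rw [← hcardmap K0, ← hK, h1]
            exact Nat.minFac_dvd _
          exact Nat.one_lt_pow hk0 hpp.one_lt
        rw [hKidx] at h1
        have h3 : 0 < Nat.card K := Nat.card_pos
        nlinarith
      have hKp : ¬ p ∣ Nat.card K := by rw [hK, hcardmap]; exact hK0p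
      -- Sylow subgroups of `K` are Sylow in `E`
      have hsy : ∀ r : ℕ, r.Prime → r ≠ p → ∀ R : Subgroup G, R ≤ K → ¬ r ∣ R.relIndex K → ¬ r ∣ R.relIndex E := by
        intro r hr hrp R hRK hR
        rw [relIndex_mul hRK hKE, hKidx]
        intro h
        rcases hr.dvd_mul.1 h with h | h
        · exact hR h
        · exact hrp ((Nat.prime_dvd_prime_iff_eq hr hpp).1 (hr.dvd_of_dvd_pow h))
      have hKhyp : HypE K := by
        intro r hr R hRK hRp hRi hRc
        refine hE r hr R (hRK.trans hKE) hRp (hsy r hr ?_ R hRK hRi) hRc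
        rintro rfl
        apply hRc
        have : R = ⊥ := by
          by_contra hne
          exact hKp ((dvd_card_of_ne_bot hRp hne).trans (Subgroup.card_dvd_of_le hRK))
        rw [this]; infer_instance
      obtain ⟨q, hq, Q, hQne, hQs, hQn⟩ := ih K hKlt hKhyp hKne
      have : Fact q.Prime := ⟨hq⟩
      have hqp : q ≠ p := by
        rintro rfl
        exact hKp ((dvd_card_of_ne_bot hQs.2.1 hQne).trans (Subgroup.card_dvd_of_le hQs.1))
      refine ⟨q, hq, Q, hQne, ⟨hQs.1.trans hKE, hQs.2.1, hsy q hq hqp Q hQs.1 hQs.2.2⟩, ?_⟩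
      exact hEK.trans (syl_norm hQs hQn)

/-- the hypothesis passes to the quotient by the normal Sylow subgroup -/
theorem HypE.quot [Finite G] {E Q : Subgroup G} [hQn : Q.Normal] [hEn : E.Normal] {q : ℕ} [hq : Fact q.Prime]
    (hQ : IsSyl q Q E) (h : HypE E) : HypE (E.map (QuotientGroup.mk' Q)) := by
  intro r hr Pb hPb hPbp hPbi hPbc
  have : Fact r.Prime := ⟨hr⟩
  set f := QuotientGroup.mk' Q with hf
  have hfs : Function.Surjective f := QuotientGroup.mk'_surjective Q
  have hEcomap : (E.map f).comap f = E := by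
    rw [Subgroup.comap_map_eq, QuotientGroup.ker_mk', sup_eq_left]; exact hQ.1
  have hcE : Nat.card (E.map f) * Nat.card Q = Nat.card E :=
    CfsgLib.SolvBasic.card_map_mk'_mul_card_of_le Q E hQ.1
  have hcE' : Nat.card Q * Q.relIndex E = Nat.card E := card_mul_relIndex' hQ.1
  have hqE : ¬ q ∣ Nat.card (E.map f) := by
    have : Nat.card (E.map f) = Q.relIndex E := by
      apply Nat.eq_of_mul_eq_mul_left (Nat.card_pos (α := Q))
      rw [hcE', ← hcE, mul_comm]
    rw [this]; exact hQ.2.2
  have hrq : r ≠ q := by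
    rintro rfl
    apply hPbc
    have : Pb = ⊥ := by
      by_contra hne
      exact hqE ((dvd_card_of_ne_bot hPbp hne).trans (Subgroup.card_dvd_of_le hPb))
    rw [this]; infer_instance
  have hrQ : ¬ r ∣ Nat.card Q := by
    obtain ⟨k, hk⟩ := IsPGroup.iff_card.mp hQ.2.1
    rw [hk]
    intro h1
    exact hrq ((Nat.prime_dvd_prime_iff_eq hr hq.out).1 (hr.dvd_of_dvd_pow h1))
  set P1 := Pb.comap f with hP1
  have hP1E : P1 ≤ E := by
    rw [← hEcomap]; exact Subgroup.comap_mono hPb
  have hQP1 : Q ≤ P1 := by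
    intro x hx
    rw [hP1, Subgroup.mem_comap]
    have : f x = 1 := (QuotientGroup.eq_one_iff x).2 hx
    rw [this]; exact one_mem _
  have hP1map : P1.map f = Pb := Subgroup.map_comap_eq_self_of_surjective hfs Pb
  obtain ⟨R, hR⟩ := exists_isSyl (p := r) P1
  have hRQ : R ⊔ Q = P1 := by
    have hle : R ⊔ Q ≤ P1 := sup_le hR.1 hQP1
    have h1 : (R ⊔ Q).relIndex P1 ∣ R.relIndex P1 := by
      rw [relIndex_mul le_sup_left hle]; exact dvd_mul_left _ _
    have h2 : (R ⊔ Q).relIndex P1 ∣ Q.relIndex P1 := by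
      rw [relIndex_mul (le_sup_right : Q ≤ R ⊔ Q) hle]; exact dvd_mul_left _ _
    have h3 : Q.relIndex P1 = Nat.card Pb := by
      have h4 := card_mul_relIndex' hQP1
      have h5 := CfsgLib.SolvBasic.card_comap_mk' Q Pb
      apply Nat.eq_of_mul_eq_mul_left (Nat.card_pos (α := Q))
      rw [h4, mul_comm]; exact h5
    obtain ⟨k, hk⟩ := IsPGroup.iff_card.mp hPbp
    rw [h3, hk] at h2
    have h6 : Nat.Coprime (R.relIndex P1) (r ^ k) :=
      (Nat.Coprime.pow_left k ((Nat.Prime.coprime_iff_not_dvd hr).2 hR.2.2)).symm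
    have h7 : (R ⊔ Q).relIndex P1 = 1 :=
      Nat.Coprime.eq_one_of_dvd (Nat.Coprime.coprime_dvd_left h1 (Nat.Coprime.coprime_dvd_right h2 h6)) dvd_rfl
    exact le_antisymm hle (Subgroup.relIndex_eq_one.1 h7)
  have hRmap : R.map f = Pb := by
    rw [← hP1map, ← hRQ, Subgroup.map_sup, hf, QuotientGroup.map_mk'_self, sup_bot_eq]
  have hRE : ¬ r ∣ R.relIndex E := by
    rw [relIndex_mul hR.1 hP1E]
    intro h1
    rcases hr.dvd_mul.1 h1 with h1 | h1
    · exact hR.2.2 h1
    · apply hPbi
      have h2 : P1.relIndex E = Pb.relIndex (E.map f) := by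
        rw [hP1, Subgroup.relIndex_comap]
      rwa [h2] at h1
  have hRc : ¬ IsCyclic R := by
    intro h1
    apply hPbc
    rw [← hRmap]
    exact isCyclic_of_surjective (f.subgroupMap R) (MonoidHom.subgroupMap_surjective f R)
  obtain ⟨D, hDR, hD1, hD2, hD⟩ := h r hr R (hR.1.trans hP1E) hR.2.1 hRE hRc
  have hdisj : ∀ F : Subgroup G, F ≤ R → F ⊓ Q = ⊥ := by
    intro F hF
    by_contra hne
    have h1 : r ∣ Nat.card ↥(F ⊓ Q) := dvd_card_of_ne_bot (hR.2.1.to_le (inf_le_left.trans hF)) hne
    exact hrQ (h1.trans (Subgroup.card_dvd_of_le inf_le_right))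
  have hcm : ∀ F : Subgroup G, F ≤ R → Nat.card (F.map f) = Nat.card F := fun F hF =>
    CfsgLib.SolvBasic.card_map_mk'_of_disjoint Q F (hdisj F hF)
  refine ⟨D.map f, ?_, by rw [hcm D hDR]; exact hD1, ?_, ?_⟩
  · rw [← hRmap]; exact Subgroup.map_mono hDR
  · rw [hcm D hDR, ← hRmap, hcm R le_rfl]; exact hD2
  · intro Fb hFb hFc
    set F := R ⊓ Fb.comap f with hF
    have hFR : F ≤ R := inf_le_left
    have hFmap : F.map f = Fb := by
      apply le_antisymm
      · rw [Subgroup.map_le_iff_le_comap]; exact inf_le_right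
      · intro y hy
        have h1 : y ∈ R.map f := by rw [hRmap]; exact hFb hy
        obtain ⟨x, hx, rfl⟩ := h1
        exact ⟨x, ⟨hx, hy⟩, rfl⟩
    rw [← hFmap]
    refine HP.map_quot (hR.2.1.to_le hFR) hrQ (hD F hFR ?_)
    rw [← hFmap, hcm F hFR, hcm D hDR] at hFc
    exact hFc

/-- the final induction -/
theorem super : ∀ (n : ℕ) (G : Type u) [Group G] [Finite G] (E : Subgroup G) [E.Normal],
    Nat.card E ≤ n → Cfsg.IsSupersolvable (G ⧸ E) → HypE E → Cfsg.IsSupersolvable G := by
  intro n
  induction n with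
  | zero =>
    intro G _ _ E _ hn
    exact absurd hn (by have : 0 < Nat.card E := Nat.card_pos; omega)
  | succ n ih =>
    intro G _ _ E hEn hn hss hE
    by_cases hEb : E = ⊥
    · subst hEb
      exact CfsgLib.Super.of_equiv (QuotientGroup.quotientBot) hss
    obtain ⟨q, hq, Q, hQne, hQs, hQE⟩ := tower (Nat.card E) E le_rfl hE hEb
    have : Fact q.Prime := ⟨hq⟩
    have hQn : Q.Normal := by
      rw [← Subgroup.normalizer_eq_top_iff, eq_top_iff]
      have h1 := syl_norm hQs hQE
      rwa [Subgroup.normalizer_eq_top] at h1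
    set f := QuotientGroup.mk' Q with hf
    have hfs : Function.Surjective f := QuotientGroup.mk'_surjective Q
    have hE1n : (E.map f).Normal := hEn.map f hfs
    have hcard : Nat.card (E.map f) ≤ n := by
      have h1 := CfsgLib.SolvBasic.card_map_mk'_mul_card_of_le Q E hQs.1
      have h2 : 1 < Nat.card Q := by
        have : Nontrivial Q := (nontrivial_iff_ne_bot Q).mpr hQne
        exact Finite.one_lt_card
      have h3 : 0 < Nat.card (E.map f) := Nat.card_pos
      nlinarith
    have hss' : Cfsg.IsSupersolvable ((G ⧸ Q) ⧸ E.map f) :=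
      CfsgLib.Super.of_equiv (QuotientGroup.quotientQuotientEquivQuotient Q E hQs.1).symm hss
    have hGQ : Cfsg.IsSupersolvable (G ⧸ Q) := ih (G ⧸ Q) (E.map f) hcard hss' (hE.quot hQs)
    by_cases hQc : IsCyclic Q
    · exact CfsgLib.Super.of_cyclic_normal Q hGQ
    obtain ⟨D, hDQ, hD1, hD2, hD⟩ := hE q hq Q hQs.1 hQs.2.1 hQs.2.2 hQc
    obtain ⟨d, hd⟩ := IsPGroup.iff_card.mp (hQs.2.1.to_le hDQ)
    rw [hd] at hD1 hD2 hD
    have hd1 : 1 ≤ d := by
      rcases Nat.eq_zero_or_pos d with h0 | h0
      · rw [h0, pow_zero] at hD1; exact absurd hD1 (lt_irrefl 1)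
      · exact h0
    have hFn : ∀ F : Subgroup G, F ≤ Q → (Nat.card F = q ^ d ∨ (q ^ d = 2 ∧ Nat.card F = 4)) → F.Normal := by
      intro F hFQ hFc
      refine ⟨fun x hx g => ?_⟩
      exact (hD F hFQ hFc).strong hFQ hQs.2.1 x hx g (hQn.conj_mem x (hFQ hx) g)
    refine hyper (Nat.card Q) G q Q le_rfl hQs.2.1 ?_ hGQ
    intro a ha hao
    refine act_trivial_gen hQs.2.1 (by rw [Subgroup.normalizer_eq_top]; exact mem_top _) hao hd1 hD2 ?_ ?_
    · intro C hCQ hCc hCcard x hx
      have := hFn C hCQ hCcard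
      exact hh_cyc_coprime (hQs.2.1.to_le hCQ) hCc ha hao x hx
    · intro T hTQ hTc hTcard
      have hTp := hQs.2.1.to_le hTQ
      have hMn : ∀ M : Subgroup G, M ≤ T → Nat.card M = q ^ d → M.Normal := fun M hM hMc =>
        hFn M (hM.trans hTQ) (Or.inl hMc)
      have hTn : T.Normal := by
        refine ⟨fun t ht g => ?_⟩
        obtain ⟨i, hi⟩ : ∃ i, orderOf t = q ^ i := by
          obtain ⟨i, hi⟩ := IsPGroup.iff_orderOf.mp hTp ⟨t, ht⟩
          exact ⟨i, by rwa [Subgroup.orderOf_mk] at hi⟩
        have htT : Subgroup.zpowers t ≤ T := by rw [Subgroup.zpowers_le]; exact ht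
        have htcard : Nat.card (Subgroup.zpowers t) = q ^ i := by rw [Nat.card_zpowers, hi]
        have hid : i ≤ d := by
          by_contra hcon
          push Not at hcon
          have h3 : Subgroup.zpowers t = T := by
            apply Subgroup.eq_of_le_of_card_ge htT
            rw [htcard, hTcard]
            exact Nat.pow_le_pow_right hq.pos hcon
          apply hTc
          rw [← h3]; infer_instance
        obtain ⟨M, htM, hMT, hM⟩ := exists_between htT hTp htcard hid
          (by rw [hTcard]; exact Nat.pow_le_pow_right hq.pos (Nat.le_succ d))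
        exact hMT ((hMn M hMT hM).conj_mem t (htM (Subgroup.mem_zpowers t)) g)
      refine ⟨by rw [Subgroup.normalizer_eq_top]; exact mem_top _, ?_⟩
      intro M hMT hM x hx
      have hMc : Nat.card M = q ^ d := by
        have h4 := card_mul_relIndex' hMT
        rw [hM, hTcard, pow_succ] at h4
        exact Nat.eq_of_mul_eq_mul_right hq.pos h4
      have := hMn M hMT hMc
      set f' := QuotientGroup.mk' M with hf'
      have hTn' : (T.map f').Normal := hTn.map f' (QuotientGroup.mk'_surjective M)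
      have hcard' : Nat.card (T.map f') = q := by
        have h5 := CfsgLib.SolvBasic.card_map_mk'_mul_card_of_le M T hMT
        rw [hTcard, hMc, pow_succ, mul_comm] at h5
        exact Nat.eq_of_mul_eq_mul_left (pow_pos hq.pos d) h5
      have h6 := hh_cyc_one (E := T.map f') hcard' (g := f' a) (map_hh q f' ⟨a, ha, rfl⟩) (f' x) ⟨x, hx, rfl⟩
      have h7 : f' (a * x * a⁻¹ * x⁻¹) = 1 := by
        rw [map_mul, map_mul, map_mul, map_inv, map_inv, h6, mul_inv_cancel]
      exact (QuotientGroup.eq_one_iff _).1 h7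

end CfsgLib.LE11Hyp
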