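import Mathlib
import Cfsg.Agent.EqBase
import Cfsg.Agent.LibLE11OC
import Cfsg.Agent.LibPCyc

set_option autoImplicit false

/-! Small lemmas (helper11): `p`-groups on groups of order `p`, coprime splitting under an involution. -/

namespace CfsgLib.LE11Ms

open Cfsg Subgroup CfsgLib.LE
open scoped Pointwise commutatorElement

variable {G : Type*} [Group G]

/-- a `p`-group normalizing a group of order `p` centralizes it. -/
theorem centralizes_of_card_prime [Finite G] {p : ℕ} [hp : Fact p.Prime] {C P : Subgroup G}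
    (hC : Nat.card C = p) (hP : IsPGroup p P) (hn : P ≤ normalizer (C : Set G)) :
    P ≤ centralizer (C : Set G) := by
  have hCp : IsPGroup p C := IsPGroup.of_card (n := 1) (by rw [hC, pow_one])
  have hK : IsPGroup p ↥(P ⊔ C) := hP.to_sup_of_normal_right' hCp hn
  have h1 : (C.subgroupOf (P ⊔ C)).Normal :=
    subgroupOf_normal_of_le_normalizer (sup_le hn le_normalizer)
  have h2 : Nat.card (C.subgroupOf (P ⊔ C)) = p := by
    rw [Nat.card_congr (subgroupOfEquivOfLe (le_sup_right : C ≤ P ⊔ C)).toEquiv, hC]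
  have h3 := CfsgLib.PCyc.le_center_of_card_eq hp.out hK (C.subgroupOf (P ⊔ C)) h2
  intro x hx
  rw [mem_centralizer_iff]
  intro c hc
  have h4 : (⟨c, (le_sup_right : C ≤ P ⊔ C) hc⟩ : ↥(P ⊔ C)) ∈ center ↥(P ⊔ C) :=
    h3 (by rw [mem_subgroupOf]; exact hc)
  have h5 := mem_center_iff.1 h4 ⟨x, (le_sup_left : P ≤ P ⊔ C) hx⟩
  exact (congrArg Subtype.val h5).symm

/-- every element of odd order is a square of a power of itself -/
theorem exists_sq_of_odd {x : G} (hx : Odd (orderOf x)) : ∃ k : ℕ, (x ^ k) ^ 2 = x := by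
  obtain ⟨k, hk⟩ := hx
  refine ⟨k + 1, ?_⟩
  rw [← pow_mul]
  have : (k + 1) * 2 = orderOf x + 1 := by omega
  rw [this, pow_succ, pow_orderOf_eq_one, one_mul]

end CfsgLib.LE11Ms
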