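import Mathlib
import Cfsg.Agent.EqBase

set_option autoImplicit false
set_option linter.all false

/-! Rings with involution in characteristic two all of whose traces and norms are central (helper11). -/

namespace CfsgLib.LE11PGV

section ring

variable {R : Type*} [Ring R]

/-- ring of characteristic two with involution, central traces and norms -/
structure RData (σ : R →+ R) : Prop where
  two : ∀ r : R, r + r = 0
  inv : ∀ r, σ (σ r) = r
  mul : ∀ r s, σ (r * s) = σ s * σ r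
  tr : ∀ r s, (r + σ r) * s = s * (r + σ r)
  nu : ∀ r s, (r * σ r) * s = s * (r * σ r)

/-- central fixed elements -/
def ZZ (σ : R →+ R) : AddSubgroup R where
  carrier := {z | (∀ s, z * s = s * z) ∧ σ z = z}
  zero_mem' := ⟨fun s => by simp, map_zero σ⟩
  add_mem' := by
    rintro a b ⟨ha, ha'⟩ ⟨hb, hb'⟩
    exact ⟨fun s => by rw [add_mul, mul_add, ha, hb], by rw [map_add, ha', hb']⟩
  neg_mem' := by
    rintro a ⟨ha, ha'⟩
    exact ⟨fun s => by rw [neg_mul, mul_neg, ha], by rw [map_neg, ha']⟩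

variable {σ : R →+ R} (D : RData σ)
include D

theorem RData.neg (r : R) : -r = r := neg_eq_of_add_eq_zero_left (D.two r)

theorem RData.one : σ 1 = 1 := by
  have h1 := D.mul (σ 1) 1
  rw [D.inv, mul_one, D.inv] at h1
  exact h1.symm

theorem RData.tr_mem (r : R) : r + σ r ∈ ZZ σ :=
  ⟨D.tr r, by rw [map_add, D.inv, add_comm]⟩

theorem RData.nu_mem (r : R) : r * σ r ∈ ZZ σ :=
  ⟨D.nu r, by rw [D.mul, D.inv]⟩

theorem RData.one_mem : (1 : R) ∈ ZZ σ := ⟨fun s => by simp, D.one⟩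

theorem RData.mul_mem {a b : R} (ha : a ∈ ZZ σ) (hb : b ∈ ZZ σ) : a * b ∈ ZZ σ := by
  refine ⟨fun s => ?_, ?_⟩
  · rw [mul_assoc, hb.1, ← mul_assoc, ha.1, mul_assoc]
  · rw [D.mul, ha.2, hb.2, ha.1]

theorem RData.tr_smul {z : R} (hz : z ∈ ZZ σ) (r : R) : z * r + σ (z * r) = z * (r + σ r) := by
  rw [D.mul, hz.2, mul_add, hz.1 (σ r)]

theorem RData.tr_sig (r : R) : σ r + σ (σ r) = r + σ r := by rw [D.inv, add_comm]

theorem RData.tr_comm (x y : R) : x * y + σ (x * y) = y * x + σ (y * x) := by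
  rw [D.mul, D.mul]
  -- σ x = x + τ
  have hx : σ x = x + (x + σ x) := by rw [← add_assoc, D.two, zero_add]
  have hy : σ y = y + (y + σ y) := by rw [← add_assoc, D.two, zero_add]
  have c1 : ∀ s, (x + σ x) * s = s * (x + σ x) := D.tr x
  have c2 : ∀ s, (y + σ y) * s = s * (y + σ y) := D.tr y
  generalize x + σ x = τ at hx c1
  generalize y + σ y = ρ at hy c2
  rw [hx, hy]
  have e1 : (y + ρ) * (x + τ) = y * x + y * τ + x * ρ + ρ * τ := by
    rw [add_mul, mul_add, mul_add, c2 x]; abel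
  have e2 : (x + τ) * (y + ρ) = x * y + x * ρ + y * τ + ρ * τ := by
    rw [add_mul, mul_add, mul_add, c1 y, c1 ρ]; abel
  rw [e1, e2]
  have e3 : ∀ a b c d : R, a + (b + c + d + ρ * τ) = a + b + c + d + ρ * τ := by intros; abel
  have e4 : x * y + (y * x + y * τ + x * ρ + ρ * τ) = y * x + (x * y + x * ρ + y * τ + ρ * τ) := by abel
  exact e4

theorem RData.eTe {e : R} (he : σ e = e) (hee : e * e = 0) (r : R) :
    e * r * e = (r * e + σ (r * e)) * e := by
  rw [D.tr, D.mul, he, mul_add, ← mul_assoc, ← mul_assoc, hee, zero_mul, add_zero]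

theorem RData.peirce {e : R} (he : σ e = e) (hee : e * e = 0) {r0 : R}
    (hr0 : e * r0 + σ (e * r0) = 1) (x : R) :
    x = (r0 * x * e + σ (r0 * x * e)) * (e * r0) + (r0 * x * σ r0 * e + σ (r0 * x * σ r0 * e)) * e +
      (x * e + σ (x * e)) * (σ r0 * e * r0) + (x * σ r0 * e + σ (x * σ r0 * e)) * (σ r0 * e) := by
  have hf : e * r0 + σ r0 * e = 1 := by rw [← hr0, D.mul, he]
  have h1 : x = (e * r0 + σ r0 * e) * x * (e * r0 + σ r0 * e) := by rw [hf, one_mul, mul_one]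
  have e1 : (r0 * x * e + σ (r0 * x * e)) * (e * r0) = (e * r0) * x * (e * r0) := by
    calc (r0 * x * e + σ (r0 * x * e)) * (e * r0) = ((r0 * x * e + σ (r0 * x * e)) * e) * r0 :=
          (mul_assoc _ _ _).symm
      _ = (e * (r0 * x) * e) * r0 := by rw [← D.eTe he hee]
      _ = _ := by noncomm_ring
  have e2 : (r0 * x * σ r0 * e + σ (r0 * x * σ r0 * e)) * e = (e * r0) * x * (σ r0 * e) := by
    rw [← D.eTe he hee]; noncomm_ring
  have e3 : (x * e + σ (x * e)) * (σ r0 * e * r0) = (σ r0 * e) * x * (e * r0) := by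
    calc (x * e + σ (x * e)) * (σ r0 * e * r0) = ((x * e + σ (x * e)) * σ r0) * e * r0 := by
          noncomm_ring
      _ = (σ r0 * (x * e + σ (x * e))) * e * r0 := by rw [D.tr]
      _ = σ r0 * ((x * e + σ (x * e)) * e) * r0 := by noncomm_ring
      _ = σ r0 * (e * x * e) * r0 := by rw [← D.eTe he hee]
      _ = _ := by noncomm_ring
  have e4 : (x * σ r0 * e + σ (x * σ r0 * e)) * (σ r0 * e) = (σ r0 * e) * x * (σ r0 * e) := by
    calc (x * σ r0 * e + σ (x * σ r0 * e)) * (σ r0 * e) =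
        ((x * σ r0 * e + σ (x * σ r0 * e)) * σ r0) * e := by noncomm_ring
      _ = (σ r0 * (x * σ r0 * e + σ (x * σ r0 * e))) * e := by rw [D.tr]
      _ = σ r0 * ((x * σ r0 * e + σ (x * σ r0 * e)) * e) := by noncomm_ring
      _ = σ r0 * (e * (x * σ r0) * e) := by rw [← D.eTe he hee]
      _ = _ := by noncomm_ring
  rw [e1, e2, e3, e4]
  nth_rw 1 [h1]
  noncomm_ring

theorem RData.card_le [Finite R] {e : R} (he : σ e = e) (hee : e * e = 0) {r0 : R}
    (hr0 : e * r0 + σ (e * r0) = 1) : Nat.card R ≤ Nat.card (ZZ σ) ^ 4 := by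
  let g : (ZZ σ × ZZ σ) × (ZZ σ × ZZ σ) → R := fun p =>
    (p.1.1 : R) * (e * r0) + (p.1.2 : R) * e + (p.2.1 : R) * (σ r0 * e * r0) + (p.2.2 : R) * (σ r0 * e)
  have hg : Function.Surjective g := by
    intro x
    exact ⟨((⟨_, D.tr_mem (r0 * x * e)⟩, ⟨_, D.tr_mem (r0 * x * σ r0 * e)⟩),
      (⟨_, D.tr_mem (x * e)⟩, ⟨_, D.tr_mem (x * σ r0 * e)⟩)), (D.peirce he hee hr0 x).symm⟩
  have h1 := Nat.card_le_card_of_surjective g hg
  rw [Nat.card_prod, Nat.card_prod] at h1
  calc Nat.card R ≤ _ := h1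
    _ = _ := by ring

variable {N : Type*} [Group N] (ψ : N →* RingAut R)

/-- no proper invariant ideals -/
def InvSimple (σ : R →+ R) (ψ : N →* RingAut R) : Prop :=
  ∀ I : AddSubgroup R, (∀ r, ∀ x ∈ I, r * x ∈ I ∧ x * r ∈ I) → (∀ x ∈ I, σ x ∈ I) →
    (∀ n, ∀ x ∈ I, ψ n x ∈ I) → I = ⊥ ∨ (1 : R) ∈ I

omit D in
theorem psi_inv (n : N) (r : R) : ψ n (ψ n⁻¹ r) = r := by
  rw [← RingAut.mul_apply, ← map_mul, mul_inv_cancel, map_one]; rfl

omit D in
theorem psi_inv' (n : N) (r : R) : ψ n⁻¹ (ψ n r) = r := by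
  rw [← RingAut.mul_apply, ← map_mul, inv_mul_cancel, map_one]; rfl

theorem RData.nondeg {ψ : N →* RingAut R} (hψσ : ∀ n r, ψ n (σ r) = σ (ψ n r))
    (hs : InvSimple σ ψ) {r1 : R}
    (hr1 : r1 + σ r1 = 1) [Nontrivial R] {e : R} (he : e ≠ 0) : ∃ s, e * s + σ (e * s) ≠ 0 := by
  by_contra hno
  push Not at hno
  let J : AddSubgroup R :=
    { carrier := {x | ∀ s, x * s + σ (x * s) = 0}
      zero_mem' := fun s => by simp
      add_mem' := by
        intro a b ha hb s
        rw [add_mul, map_add]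
        calc a * s + b * s + (σ (a * s) + σ (b * s)) = (a * s + σ (a * s)) + (b * s + σ (b * s)) := by abel
          _ = 0 := by rw [ha, hb, add_zero]
      neg_mem' := by
        intro a ha s
        rw [D.neg]; exact ha s }
  have hJ1 : ∀ r, ∀ x ∈ J, r * x ∈ J ∧ x * r ∈ J := by
    intro r x hx
    refine ⟨fun s => ?_, fun s => ?_⟩
    · rw [mul_assoc, D.tr_comm, mul_assoc]; exact hx _
    · rw [mul_assoc]; exact hx _
  have hJ2 : ∀ x ∈ J, σ x ∈ J := by
    intro x hx s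
    have h1 := hx (σ s)
    rw [D.tr_comm, ← D.tr_sig, D.mul, D.inv] at h1
    exact h1
  have hJ3 : ∀ n, ∀ x ∈ J, ψ n x ∈ J := by
    intro n x hx s
    have h1 := hx (ψ n⁻¹ s)
    have h2 := congrArg (ψ n) h1
    rw [map_zero, map_add, map_mul, psi_inv, hψσ, map_mul, psi_inv] at h2
    exact h2
  rcases hs J hJ1 hJ2 hJ3 with h | h
  · apply he
    have : e ∈ J := hno
    rw [h] at this
    exact (AddSubgroup.mem_bot).1 this
  · have h1 := h r1
    rw [one_mul, hr1] at h1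
    exact one_ne_zero h1

end ring

end CfsgLib.LE11PGV
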