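import Mathlib
import Cfsg.Agent.EqBase
import Cfsg.Agent.LibLE11PGV3

set_option autoImplicit false
set_option linter.all false

/-! The main ring-theoretic estimate for the P(G,V) theorem (helper11). -/

namespace CfsgLib.LE11PGV

section ring

variable {R : Type*} [Ring R] {σ : R →+ R} (D : RData σ) {N : Type*} [Group N] {ψ : N →* RingAut R}
include D

theorem RData.psi_mem (hψσ : ∀ n r, ψ n (σ r) = σ (ψ n r)) (n : N) {z : R} (hz : z ∈ ZZ σ) :
    ψ n z ∈ ZZ σ := by
  refine ⟨fun s => ?_, ?_⟩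
  · have h1 := congrArg (ψ n) (hz.1 (ψ n⁻¹ s))
    rwa [map_mul, map_mul, psi_inv] at h1
  · rw [← hψσ, hz.2]

theorem RData.inverse (hψσ : ∀ n r, ψ n (σ r) = σ (ψ n r)) (hs : InvSimple σ ψ)
    (hfix : ∀ n, ∀ z ∈ ZZ σ, ψ n z = z) {z : R} (hz : z ∈ ZZ σ) (hz0 : z ≠ 0) :
    ∃ w ∈ ZZ σ, z * w = 1 := by
  let I : AddSubgroup R :=
    { carrier := {x | ∃ r, x = z * r}
      zero_mem' := ⟨0, by simp⟩
      add_mem' := by rintro _ _ ⟨a, rfl⟩ ⟨b, rfl⟩; exact ⟨a + b, by rw [mul_add]⟩
      neg_mem' := by rintro _ ⟨a, rfl⟩; exact ⟨-a, by rw [mul_neg]⟩ }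
  have hI1 : ∀ r, ∀ x ∈ I, r * x ∈ I ∧ x * r ∈ I := by
    rintro r _ ⟨a, rfl⟩
    exact ⟨⟨r * a, by rw [← mul_assoc, ← hz.1, mul_assoc]⟩, ⟨a * r, by rw [mul_assoc]⟩⟩
  have hI2 : ∀ x ∈ I, σ x ∈ I := by
    rintro _ ⟨a, rfl⟩
    exact ⟨σ a, by rw [D.mul, hz.2, hz.1]⟩
  have hI3 : ∀ n, ∀ x ∈ I, ψ n x ∈ I := by
    rintro n _ ⟨a, rfl⟩
    exact ⟨ψ n a, by rw [map_mul, hfix n z hz]⟩
  rcases hs I hI1 hI2 hI3 with h | ⟨w, hw⟩
  · exfalso
    apply hz0
    have : z ∈ I := ⟨1, by rw [mul_one]⟩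
    rw [h] at this
    exact AddSubgroup.mem_bot.1 this
  · refine ⟨w, ⟨fun s => ?_, ?_⟩, hw.symm⟩
    · have h1 : w * z = 1 := by rw [← hz.1]; exact hw.symm
      calc w * s = w * s * (z * w) := by rw [← hw, mul_one]
        _ = w * (s * z) * w := by noncomm_ring
        _ = w * (z * s) * w := by rw [hz.1]
        _ = (w * z) * s * w := by noncomm_ring
        _ = s * w := by rw [h1, one_mul]
    · have h2 : σ w * z = 1 := by
        have := congrArg σ hw
        rw [D.one, D.mul, hz.2] at this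
        exact this.symm
      calc σ w = σ w * (z * w) := by rw [← hw, mul_one]
        _ = (σ w * z) * w := by rw [mul_assoc]
        _ = w := by rw [h2, one_mul]

theorem RData.main [Finite R] [Nontrivial R] (hnc : ∃ x y : R, x * y ≠ y * x) [Finite N]
    (hinj : Function.Injective ψ) (hψσ : ∀ n r, ψ n (σ r) = σ (ψ n r)) (hs : InvSimple σ ψ)
    {r1 : R} (hr1 : r1 + σ r1 = 1) {n0 : N} (hn0 : ∃ r, ψ n0 r ≠ r)
    (hδσ : ∀ r, σ (ψ n0 r + r) = ψ n0 r + r) (hδN : ∀ n r, ψ n (ψ n0 r + r) = ψ n0 r + r)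
    (S : AddSubgroup R) (hS : ∀ s, s ∈ S ↔ σ s = s ∧ ∀ n, ψ n s = s)
    (hcard : Nat.card R ≤ 2 * Nat.card N * Nat.card S) : Nat.card R ≤ 16 := by
  classical
  have h2 := D.two
  have hcancel : ∀ a b : R, a + b = 0 → a = b := by
    intro a b h
    have : a = -b := eq_neg_of_add_eq_zero_left h
    rw [this, D.neg]
  obtain ⟨rr, hrr⟩ := hn0
  have hδne : ψ n0 rr + rr ≠ 0 := fun h => hrr (hcancel _ _ h)
  -- n0 fixes ZZ
  have hn0tr : ∀ r, ψ n0 (r + σ r) = r + σ r := by
    intro r
    rw [map_add, hψσ]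
    have h1 := hδσ r
    rw [map_add] at h1
    -- σ ψ r + σ r = ψ r + r
    apply hcancel
    calc ψ n0 r + σ (ψ n0 r) + (r + σ r) = (ψ n0 r + r) + (σ (ψ n0 r) + σ r) := by abel
      _ = 0 := by rw [h1, h2]
  have hn0Z : ∀ z ∈ ZZ σ, ψ n0 z = z := by
    intro z hz
    have h1 : z = z * r1 + σ (z * r1) := by rw [D.tr_smul hz, hr1, mul_one]
    rw [h1, hn0tr]
  -- all fix ZZ
  have hfix : ∀ n, ∀ z ∈ ZZ σ, ψ n z = z := by
    intro n z hz
    have hδz : ∀ r, z * (ψ n0 r + r) = ψ n0 (z * r) + z * r := by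
      intro r; rw [map_mul, hn0Z z hz, mul_add]
    have h1 : ∀ r, (ψ n z + z) * (ψ n0 r + r) = 0 := by
      intro r
      have h3 := hδN n (z * r)
      rw [← hδz, map_mul, hδN] at h3
      rw [add_mul, h3, h2]
    let I : AddSubgroup R :=
      { carrier := {x | ∀ r s, x * s * (ψ n0 r + r) = 0 ∧ (ψ n0 r + r) * s * x = 0}
        zero_mem' := fun r s => by simp
        add_mem' := by
          intro a b ha hb r s
          refine ⟨?_, ?_⟩
          · rw [add_mul, add_mul, (ha r s).1, (hb r s).1, add_zero]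
          · rw [mul_add, (ha r s).2, (hb r s).2, add_zero]
        neg_mem' := by
          intro a ha r s
          rw [D.neg]; exact ha r s }
    have hI1 : ∀ r, ∀ x ∈ I, r * x ∈ I ∧ x * r ∈ I := by
      intro t x hx
      refine ⟨fun r s => ⟨?_, ?_⟩, fun r s => ⟨?_, ?_⟩⟩
      · have := (hx r s).1
        calc t * x * s * (ψ n0 r + r) = t * (x * s * (ψ n0 r + r)) := by noncomm_ring
          _ = 0 := by rw [this, mul_zero]
      · have := (hx r (s * t)).2
        calc (ψ n0 r + r) * s * (t * x) = (ψ n0 r + r) * (s * t) * x := by noncomm_ring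
          _ = 0 := this
      · have := (hx r (t * s)).1
        calc x * t * s * (ψ n0 r + r) = x * (t * s) * (ψ n0 r + r) := by noncomm_ring
          _ = 0 := this
      · have := (hx r s).2
        calc (ψ n0 r + r) * s * (x * t) = ((ψ n0 r + r) * s * x) * t := by noncomm_ring
          _ = 0 := by rw [this, zero_mul]
    have hI2 : ∀ x ∈ I, σ x ∈ I := by
      intro x hx r s
      refine ⟨?_, ?_⟩
      · have := congrArg σ (hx r (σ s)).2
        rw [D.mul, D.mul, D.inv, hδσ, map_zero, ← mul_assoc] at this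
        exact this
      · have := congrArg σ (hx r (σ s)).1
        rw [D.mul, D.mul, D.inv, hδσ, map_zero, ← mul_assoc] at this
        exact this
    have hI3 : ∀ n, ∀ x ∈ I, ψ n x ∈ I := by
      intro n x hx r s
      refine ⟨?_, ?_⟩
      · have := congrArg (ψ n) (hx r (ψ n⁻¹ s)).1
        rw [map_mul, map_mul, psi_inv, hδN, map_zero] at this
        exact this
      · have := congrArg (ψ n) (hx r (ψ n⁻¹ s)).2
        rw [map_mul, map_mul, psi_inv, hδN, map_zero] at this
        exact this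
    rcases hs I hI1 hI2 hI3 with h | h
    · have hu : ψ n z + z ∈ ZZ σ := add_mem (D.psi_mem hψσ n hz) hz
      have h3 : ψ n z + z ∈ I := by
        intro r s
        refine ⟨?_, ?_⟩
        · rw [hu.1 s, mul_assoc, h1, mul_zero]
        · rw [mul_assoc, ← hu.1 s, ← mul_assoc, ← hu.1, h1, zero_mul]
      rw [h] at h3
      exact hcancel _ _ (AddSubgroup.mem_bot.1 h3)
    · exfalso
      apply hδne
      have := (h rr 1).1
      rwa [one_mul, one_mul] at this
  have hinverse : ∀ z ∈ ZZ σ, z ≠ 0 → ∃ w ∈ ZZ σ, z * w = 1 := fun z hz hz0 =>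
    D.inverse hψσ hs hfix hz hz0
  -- Frobenius
  have hfrob : ∀ z ∈ ZZ σ, ∃ w ∈ ZZ σ, w * w = z := by
    let F : ZZ σ → ZZ σ := fun z => ⟨z * z, D.mul_mem z.2 z.2⟩
    have hF : Function.Injective F := by
      intro a b hab
      have h3 : (a : R) * a = b * b := congrArg Subtype.val hab
      apply Subtype.ext
      by_contra hne
      have h4 : (a : R) + b ≠ 0 := fun h => hne (hcancel _ _ h)
      obtain ⟨w, hw, hw1⟩ := hinverse _ (add_mem a.2 b.2) h4
      apply h4
      have h5 : ((a : R) + b) * (a + b) = 0 := by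
        calc ((a : R) + b) * (a + b) = a * a + (a * b + b * a) + b * b := by noncomm_ring
          _ = b * b + (a * b + a * b) + b * b := by rw [h3, a.2.1 b]
          _ = 0 := by rw [h2, add_zero, h2]
      calc (a : R) + b = (a + b) * ((a + b) * w) := by rw [hw1, mul_one]
        _ = ((a + b) * (a + b)) * w := by rw [mul_assoc]
        _ = 0 := by rw [h5, zero_mul]
    intro z hz
    obtain ⟨w, hw⟩ := (Finite.injective_iff_surjective.1 hF) ⟨z, hz⟩
    exact ⟨w, w.2, congrArg Subtype.val hw⟩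
  -- an element with δ r not central
  have hex : ∃ r, ψ n0 r + r ∉ ZZ σ := by
    by_contra hno
    push Not at hno
    obtain ⟨w, hw, hw1⟩ := hinverse _ (hno rr) hδne
    have hform : ∀ s : R, ∃ a ∈ ZZ σ, ∃ b ∈ ZZ σ, s = a + b * rr := by
      intro s
      have h3 : (ψ n0 rr + rr) * s + (ψ n0 s + s) * rr =
          (ψ n0 (rr * s) + rr * s) + (ψ n0 rr + rr) * (ψ n0 s + s) := by
        have h4 : (ψ n0 s + s) * rr = rr * (ψ n0 s + s) := (hno s).1 rr
        rw [h4, map_mul]
        apply hcancel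
        calc (ψ n0 rr + rr) * s + rr * (ψ n0 s + s) +
            (ψ n0 rr * ψ n0 s + rr * s + (ψ n0 rr + rr) * (ψ n0 s + s)) =
            (ψ n0 rr * s + ψ n0 rr * s) + (rr * s + rr * s) + (rr * ψ n0 s + rr * ψ n0 s) +
            (rr * s + rr * s) + (ψ n0 rr * ψ n0 s + ψ n0 rr * ψ n0 s) := by noncomm_ring
          _ = 0 := by simp only [h2, add_zero]
      have h5 : (ψ n0 rr + rr) * s + (ψ n0 s + s) * rr ∈ ZZ σ := by
        rw [h3]; exact add_mem (hno _) (D.mul_mem (hno _) (hno _))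
      refine ⟨w * ((ψ n0 rr + rr) * s + (ψ n0 s + s) * rr), D.mul_mem hw h5,
        w * (ψ n0 s + s), D.mul_mem hw (hno s), ?_⟩
      have hw2 : w * (ψ n0 rr + rr) = 1 := by rw [hw.1]; exact hw1
      calc s = (w * (ψ n0 rr + rr)) * s := by rw [hw2, one_mul]
        _ = (w * (ψ n0 rr + rr)) * s + (w * (ψ n0 s + s) * rr + w * (ψ n0 s + s) * rr) := by
            rw [h2, add_zero]
        _ = _ := by noncomm_ring
    obtain ⟨x, y, hxy⟩ := hnc
    apply hxy
    obtain ⟨a, ha, b, hb, rfl⟩ := hform x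
    obtain ⟨c, hc, d, hd, rfl⟩ := hform y
    rw [add_mul, mul_add, mul_add, add_mul (c), mul_add, mul_add]
    have e1 : a * c = c * a := ha.1 c
    have e2 : a * (d * rr) = d * rr * a := ha.1 _
    have e3 : b * rr * c = c * (b * rr) := (hc.1 _).symm
    have e4 : b * rr * (d * rr) = d * rr * (b * rr) := by
      calc b * rr * (d * rr) = b * (rr * d) * rr := by noncomm_ring
        _ = b * (d * rr) * rr := by rw [hd.1]
        _ = (b * d) * rr * rr := by noncomm_ring
        _ = (d * b) * rr * rr := by rw [hb.1]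
        _ = d * (b * rr) * rr := by noncomm_ring
        _ = d * (rr * b) * rr := by rw [hb.1]
        _ = _ := by noncomm_ring
    rw [e1, e2, e3, e4]; abel
  obtain ⟨r2, hr2⟩ := hex
  set c := ψ n0 r2 + r2 with hc
  have hcσ : σ c = c := hδσ r2
  have hcc : c * c ∈ ZZ σ := by
    have := D.nu_mem c
    rwa [hcσ] at this
  obtain ⟨f0, hf0, hff⟩ := hfrob _ hcc
  set e := c + f0 with he
  have heσ : σ e = e := by rw [he, map_add, hcσ, hf0.2]
  have hee : e * e = 0 := by
    calc e * e = c * c + (c * f0 + f0 * c) + f0 * f0 := by rw [he]; noncomm_ring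
      _ = c * c + (c * f0 + c * f0) + c * c := by rw [hff, hf0.1]
      _ = 0 := by rw [h2, add_zero, h2]
  have he0 : e ≠ 0 := by
    intro h
    apply hr2
    have h3 : c = f0 := hcancel _ _ (by rw [← he]; exact h)
    rw [h3]
    exact hf0
  have heN : ∀ n, ψ n e = e := by
    intro n
    rw [he, map_add, hfix n f0 hf0, hc, hδN]
  have hSe : ∀ s ∈ S, s * e = e * s := by
    intro s hsS
    have hs' := (hS s).1 hsS
    have h3 : ψ n0 (s * r2) + s * r2 = s * c := by rw [map_mul, hs'.2, hc, mul_add]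
    have h4 := hδσ (s * r2)
    rw [h3, D.mul, hcσ, hs'.1] at h4
    rw [he, mul_add, add_mul, h4, hf0.1]
  -- r0
  obtain ⟨s0, hs0⟩ := D.nondeg hψσ hs hr1 he0
  obtain ⟨w, hw, hw1⟩ := hinverse _ (D.tr_mem (e * s0)) hs0
  obtain ⟨r0, hr0⟩ : ∃ r0, e * r0 + σ (e * r0) = 1 := by
    refine ⟨w * s0, ?_⟩
    have h3 : e * (w * s0) = w * (e * s0) := by rw [← mul_assoc, ← hw.1, mul_assoc]
    rw [h3, D.tr_smul hw, hw.1]; exact hw1
  have hr0' : r0 * e + σ (r0 * e) = 1 := by rw [D.tr_comm]; exact hr0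
  have hq4 := D.card_le heσ hee hr0
  have here : e * r0 * e = e := by rw [D.eTe heσ hee, hr0', one_mul]
  have hTe : e + σ e = 0 := by rw [heσ, h2]
  -- |S| q^2 ≤ |R|
  have hSq : Nat.card S * (Nat.card (ZZ σ) * Nat.card (ZZ σ)) ≤ Nat.card R := by
    let g : S × (ZZ σ × ZZ σ) → R := fun p =>
      (p.1 : R) + (p.2.2 : R) * r0 + ((p.2.1 : R) + p.2.2 * (r0 + σ r0)) * (e * r0)
    have hT : ∀ p : S × (ZZ σ × ZZ σ), g p + σ (g p) = p.2.1 := by
      rintro ⟨⟨s, hs1⟩, ⟨u, hu⟩, ⟨v, hv⟩⟩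
      have hs' := (hS s).1 hs1
      have hw' : u + v * (r0 + σ r0) ∈ ZZ σ := add_mem hu (D.mul_mem hv (D.tr_mem r0))
      show (s + v * r0 + (u + v * (r0 + σ r0)) * (e * r0)) +
        σ (s + v * r0 + (u + v * (r0 + σ r0)) * (e * r0)) = u
      rw [map_add, map_add]
      calc _ = (s + σ s) + (v * r0 + σ (v * r0)) + ((u + v * (r0 + σ r0)) * (e * r0) +
            σ ((u + v * (r0 + σ r0)) * (e * r0))) := by abel
        _ = 0 + v * (r0 + σ r0) + (u + v * (r0 + σ r0)) * 1 := by
            rw [hs'.1, h2, D.tr_smul hv, D.tr_smul hw', hr0]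
        _ = (v * (r0 + σ r0) + v * (r0 + σ r0)) + u := by noncomm_ring
        _ = u := by rw [h2, zero_add]
    have hT2 : ∀ p : S × (ZZ σ × ZZ σ), g p * e + σ (g p * e) = p.2.2 := by
      rintro ⟨⟨s, hs1⟩, ⟨u, hu⟩, ⟨v, hv⟩⟩
      have hs' := (hS s).1 hs1
      have hw' : u + v * (r0 + σ r0) ∈ ZZ σ := add_mem hu (D.mul_mem hv (D.tr_mem r0))
      show (s + v * r0 + (u + v * (r0 + σ r0)) * (e * r0)) * e +
        σ ((s + v * r0 + (u + v * (r0 + σ r0)) * (e * r0)) * e) = v
      have e1 : (s + v * r0 + (u + v * (r0 + σ r0)) * (e * r0)) * e =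
          s * e + v * (r0 * e) + (u + v * (r0 + σ r0)) * (e * r0 * e) := by noncomm_ring
      rw [e1, here, map_add, map_add]
      calc _ = (s * e + σ (s * e)) + (v * (r0 * e) + σ (v * (r0 * e))) +
            ((u + v * (r0 + σ r0)) * e + σ ((u + v * (r0 + σ r0)) * e)) := by abel
        _ = (s * e + s * e) + v * 1 + (u + v * (r0 + σ r0)) * 0 := by
            rw [D.tr_smul hv, D.tr_smul hw', hr0', hTe, D.mul, heσ, hs'.1, hSe s hs1]
        _ = v := by rw [h2, zero_add, mul_one, mul_zero, add_zero]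
    have hg : Function.Injective g := by
      intro p p' hpp
      have h3 : (p.2.1 : R) = p'.2.1 := by rw [← hT p, ← hT p', hpp]
      have h4 : (p.2.2 : R) = p'.2.2 := by rw [← hT2 p, ← hT2 p', hpp]
      have h5 : (p.1 : R) = p'.1 := by
        have h6 : (p.1 : R) + (p.2.2 : R) * r0 + ((p.2.1 : R) + p.2.2 * (r0 + σ r0)) * (e * r0) =
          (p'.1 : R) + (p'.2.2 : R) * r0 + ((p'.2.1 : R) + p'.2.2 * (r0 + σ r0)) * (e * r0) := hpp
        rw [h3, h4] at h6
        exact add_right_cancel (add_right_cancel h6)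
      exact Prod.ext (Subtype.ext h5) (Prod.ext (Subtype.ext h3) (Subtype.ext h4))
    have h3 := Nat.card_le_card_of_injective g hg
    rwa [Nat.card_prod, Nat.card_prod] at h3
  -- |N| ≤ q
  have hNq : Nat.card N ≤ Nat.card (ZZ σ) := by
    have hform : ∀ m : N, ∃ a ∈ ZZ σ, a = r0 * (ψ m r0 + r0) * e + σ (r0 * (ψ m r0 + r0) * e) ∧
        ψ m r0 + r0 = a + (a * a + a * (r0 + σ r0)) * e := by
      intro m
      set d := ψ m r0 + r0 with hd
      have hTd : d + σ d = 0 := by
        have h3 := hfix m _ (D.tr_mem r0)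
        rw [map_add, hψσ] at h3
        rw [hd, map_add]
        calc ψ m r0 + r0 + (σ (ψ m r0) + σ r0) = (ψ m r0 + σ (ψ m r0)) + (r0 + σ r0) := by abel
          _ = 0 := by rw [h3, h2]
      have hdσ : σ d = d := (hcancel _ _ hTd).symm
      have hTde : d * e + σ (d * e) = 0 := by
        have h3 := hfix m _ (D.tr_mem (r0 * e))
        rw [map_add, hψσ, map_mul, heN] at h3
        rw [hd, add_mul, map_add]
        calc ψ m r0 * e + r0 * e + (σ (ψ m r0 * e) + σ (r0 * e)) =
            (ψ m r0 * e + σ (ψ m r0 * e)) + (r0 * e + σ (r0 * e)) := by abel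
          _ = 0 := by rw [h3, h2]
      have hde : d * e = e * d := by
        rw [D.mul, heσ, hdσ] at hTde
        exact hcancel _ _ hTde
      refine ⟨_, D.tr_mem (r0 * d * e), rfl, ?_⟩
      set a := r0 * d * e + σ (r0 * d * e) with ha
      have haZ : a ∈ ZZ σ := D.tr_mem _
      set b := r0 * d * σ r0 * e + σ (r0 * d * σ r0 * e) with hb
      have hbZ : b ∈ ZZ σ := D.tr_mem _
      have h3 : d * σ r0 * e + σ (d * σ r0 * e) = a := by
        rw [← D.tr_sig, D.mul, D.mul, D.inv, heσ, hdσ, D.tr_comm, ha]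
      have hpe := D.peirce heσ hee hr0 d
      rw [h3, hTde, zero_mul, add_zero, ← ha, ← hb] at hpe
      have h4 : d = a + b * e := by
        calc d = a * (e * r0) + b * e + a * (σ r0 * e) := hpe
          _ = a * (e * r0 + σ r0 * e) + b * e := by noncomm_ring
          _ = a + b * e := by
              have : e * r0 + σ r0 * e = 1 := by rw [← hr0, D.mul, heσ]
              rw [this, mul_one]
      -- norm
      have h5 : r0 * d + σ (r0 * d) + d * d = 0 := by
        have h6 := hfix m _ (D.nu_mem r0)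
        rw [map_mul, hψσ] at h6
        have h7 : ψ m r0 = r0 + d := by
          rw [hd]
          calc ψ m r0 = ψ m r0 + (r0 + r0) := by rw [h2, add_zero]
            _ = r0 + (ψ m r0 + r0) := by abel
        rw [h7, map_add, hdσ] at h6
        rw [D.mul, hdσ]
        have h8 : (r0 + d) * (σ r0 + d) = r0 * σ r0 + (r0 * d + d * σ r0 + d * d) := by noncomm_ring
        rw [h8] at h6
        exact left_eq_add.1 h6.symm
      have h6 : d * d = a * a := by
        have e1 : e * a = a * e := (haZ.1 e).symm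
        have e2 : e * b = b * e := (hbZ.1 e).symm
        have e3 : b * a = a * b := hbZ.1 a
        calc d * d = (a + b * e) * (a + b * e) := by rw [← h4]
          _ = a * a + (a * b * e + b * (e * a)) + b * (e * b) * e := by noncomm_ring
          _ = a * a + (a * b * e + b * a * e) + b * b * (e * e) := by rw [e1, e2]; noncomm_ring
          _ = a * a := by rw [e3, h2, hee, mul_zero, add_zero, add_zero]
      have h7 : r0 * d + σ (r0 * d) = a * (r0 + σ r0) + b := by
        have e1 : r0 * d = a * r0 + b * (r0 * e) := by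
          calc r0 * d = r0 * (a + b * e) := by rw [← h4]
            _ = r0 * a + (r0 * b) * e := by rw [mul_add, mul_assoc]
            _ = a * r0 + b * (r0 * e) := by rw [← haZ.1 r0, ← hbZ.1 r0, mul_assoc]
        rw [e1, map_add]
        calc _ = (a * r0 + σ (a * r0)) + (b * (r0 * e) + σ (b * (r0 * e))) := by abel
          _ = _ := by rw [D.tr_smul haZ, D.tr_smul hbZ, hr0', mul_one]
      rw [h6, h7] at h5
      have h8 : b = a * a + a * (r0 + σ r0) := by
        apply hcancel
        calc b + (a * a + a * (r0 + σ r0)) = a * (r0 + σ r0) + b + a * a := by abel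
          _ = 0 := h5
      rw [h4, h8]
    choose a haZ ha1 ha2 using hform
    let g : N → ZZ σ := fun m => ⟨a m, haZ m⟩
    have hg : Function.Injective g := by
      intro m m' hmm
      have h3 : a m = a m' := congrArg Subtype.val hmm
      have h4 : ψ m r0 + r0 = ψ m' r0 + r0 := by rw [ha2 m, ha2 m', h3]
      have h5 : ψ m r0 = ψ m' r0 := add_right_cancel h4
      apply hinj
      apply RingEquiv.ext
      intro x
      have hval : ∀ k : N, ψ k x =
          (r0 * x * e + σ (r0 * x * e)) * (e * ψ k r0) + (r0 * x * σ r0 * e + σ (r0 * x * σ r0 * e)) * e +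
          (x * e + σ (x * e)) * (σ (ψ k r0) * e * ψ k r0) +
          (x * σ r0 * e + σ (x * σ r0 * e)) * (σ (ψ k r0) * e) := by
        intro k
        have hp := congrArg (ψ k) (D.peirce heσ hee hr0 x)
        rw [map_add, map_add, map_add, map_mul (ψ k) (r0 * x * e + σ (r0 * x * e)),
          map_mul (ψ k) (r0 * x * σ r0 * e + σ (r0 * x * σ r0 * e)),
          map_mul (ψ k) (x * e + σ (x * e)), map_mul (ψ k) (x * σ r0 * e + σ (x * σ r0 * e)),
          hfix k _ (D.tr_mem (r0 * x * e)), hfix k _ (D.tr_mem (r0 * x * σ r0 * e)),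
          hfix k _ (D.tr_mem (x * e)), hfix k _ (D.tr_mem (x * σ r0 * e)),
          map_mul (ψ k) e, map_mul (ψ k) (σ r0 * e), map_mul (ψ k) (σ r0), heN, hψσ] at hp
        exact hp
      rw [hval m, hval m', h5]
    exact Nat.card_le_card_of_injective g hg
  -- conclusion
  have hSpos : 0 < Nat.card S := Nat.card_pos
  have hq : Nat.card (ZZ σ) ≤ 2 := by
    set q := Nat.card (ZZ σ) with hq
    have hqpos : 0 < q := Nat.card_pos
    have h3 : Nat.card S * (q * q) ≤ 2 * q * Nat.card S := by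
      calc Nat.card S * (q * q) ≤ Nat.card R := hSq
        _ ≤ 2 * Nat.card N * Nat.card S := hcard
        _ ≤ 2 * q * Nat.card S := Nat.mul_le_mul_right _ (Nat.mul_le_mul_left _ hNq)
    have h4 : Nat.card S * (q * q) ≤ Nat.card S * (2 * q) := by rw [mul_comm (Nat.card S) (2 * q)]; exact h3
    have h5 := Nat.le_of_mul_le_mul_left h4 hSpos
    exact Nat.le_of_mul_le_mul_right h5 hqpos
  calc Nat.card R ≤ Nat.card (ZZ σ) ^ 4 := hq4
    _ ≤ 2 ^ 4 := Nat.pow_le_pow_left hq 4
    _ = 16 := by norm_num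

end ring

end CfsgLib.LE11PGV
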