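import Mathlib
import Cfsg.Agent.EqBase
import Cfsg.Agent.LibLE11PGV1

set_option autoImplicit false

/-! Timmesfeld replacement for best offenders on modules (helper11). -/

namespace CfsgLib.LE11PGV

open Subgroup

variable {G : Type*} [Group G] (V : Type*) [AddCommGroup V] [DistribMulAction G V]

/-- `|B| |C_V(B)|` -/
noncomputable def jj (B : Subgroup G) : ℕ := Nat.card B * Nat.card (fx V B)

theorem add_card_sup_mul [Finite V] (X Y : AddSubgroup V) :
    Nat.card (X ⊔ Y : AddSubgroup V) * Nat.card (X ⊓ Y : AddSubgroup V) = Nat.card X * Nat.card Y := by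
  have h1 : Nat.card Y * Y.relIndex (X ⊔ Y) = Nat.card (X ⊔ Y : AddSubgroup V) := by
    rw [AddSubgroup.relIndex, ← Nat.card_congr (AddSubgroup.addSubgroupOfEquivOfLe
      (le_sup_right : Y ≤ X ⊔ Y)).toEquiv, AddSubgroup.card_mul_index]
  have h2 : Nat.card (X ⊓ Y : AddSubgroup V) * (X ⊓ Y).relIndex X = Nat.card X := by
    rw [AddSubgroup.relIndex, ← Nat.card_congr (AddSubgroup.addSubgroupOfEquivOfLe
      (inf_le_left : X ⊓ Y ≤ X)).toEquiv, AddSubgroup.card_mul_index]
  have h3 : Y.relIndex (X ⊔ Y) = (X ⊓ Y).relIndex X := by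
    rw [AddSubgroup.inf_relIndex_left, AddSubgroup.relIndex_sup_right]
  rw [← h1, ← h2, h3]; ring

theorem add_card_mul_relIndex {X Y : AddSubgroup V} (h : X ≤ Y) :
    Nat.card X * X.relIndex Y = Nat.card Y := by
  rw [AddSubgroup.relIndex, ← Nat.card_congr (AddSubgroup.addSubgroupOfEquivOfLe h).toEquiv,
    AddSubgroup.card_mul_index]

variable [Finite G] [Finite V]

theorem card_fx_pos (B : Subgroup G) : 0 < Nat.card (fx V B) := Nat.card_pos

/-- maximizers of `jj` are closed under intersections -/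
theorem jj_inf {A : Subgroup G} (hA : ∀ a ∈ A, ∀ b ∈ A, a * b = b * a) {m : ℕ}
    (hmax : ∀ B ≤ A, jj V B ≤ m) {B C : Subgroup G} (hB : B ≤ A) (hC : C ≤ A) (hBm : jj V B = m)
    (hCm : jj V C = m) : jj V (B ⊓ C) = m ∧ fx V (B ⊓ C) = fx V B ⊔ fx V C := by
  have h1 : Nat.card (B ⊔ C : Subgroup G) * Nat.card (B ⊓ C : Subgroup G) = Nat.card B * Nat.card C := by
    apply CfsgLib.LE.card_sup_mul_card_inf
    refine le_trans ?_ (centralizer_le_normalizer _)
    intro b hb
    rw [mem_centralizer_iff]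
    intro c hc
    exact hA c (hC hc) b (hB hb)
  have h2 := add_card_sup_mul V (fx V B) (fx V C)
  have h3 : fx V B ⊔ fx V C ≤ fx V (B ⊓ C) := sup_le (fx_anti V inf_le_left) (fx_anti V inf_le_right)
  have h4 : jj V (B ⊔ C) ≤ m := hmax _ (sup_le hB hC)
  have h5 : jj V (B ⊓ C) ≤ m := hmax _ (inf_le_left.trans hB)
  have h6 : Nat.card (fx V B ⊔ fx V C : AddSubgroup V) ≤ Nat.card (fx V (B ⊓ C)) :=
    AddSubgroup.card_le_of_le h3
  have hmpos : 0 < m := by
    rw [← hBm]; exact Nat.mul_pos Nat.card_pos Nat.card_pos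
  -- m * m = jj (B ⊔ C) * (|B ⊓ C| |fx B ⊔ fx C|)
  have h7 : jj V (B ⊔ C) * (Nat.card (B ⊓ C : Subgroup G) *
      Nat.card (fx V B ⊔ fx V C : AddSubgroup V)) = m * m := by
    have e1 : jj V (B ⊔ C) = Nat.card (B ⊔ C : Subgroup G) * Nat.card (fx V B ⊓ fx V C : AddSubgroup V) := by
      rw [jj, fx_sup]
    nth_rw 1 [← hBm]; rw [← hCm, e1, jj, jj]
    calc Nat.card (B ⊔ C : Subgroup G) * Nat.card (fx V B ⊓ fx V C : AddSubgroup V) *
        (Nat.card (B ⊓ C : Subgroup G) * Nat.card (fx V B ⊔ fx V C : AddSubgroup V)) =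
        (Nat.card (B ⊔ C : Subgroup G) * Nat.card (B ⊓ C : Subgroup G)) *
        (Nat.card (fx V B ⊔ fx V C : AddSubgroup V) * Nat.card (fx V B ⊓ fx V C : AddSubgroup V)) := by ring
      _ = _ := by rw [h1, h2]; ring
  have h8 : Nat.card (B ⊓ C : Subgroup G) * Nat.card (fx V B ⊔ fx V C : AddSubgroup V) ≤
      jj V (B ⊓ C) := Nat.mul_le_mul_left _ h6
  have h9 : m ≤ Nat.card (B ⊓ C : Subgroup G) * Nat.card (fx V B ⊔ fx V C : AddSubgroup V) := by
    by_contra hlt
    push Not at hlt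
    have h10 : jj V (B ⊔ C) * (Nat.card (B ⊓ C : Subgroup G) *
      Nat.card (fx V B ⊔ fx V C : AddSubgroup V)) < m * m := by
      calc _ ≤ m * (Nat.card (B ⊓ C : Subgroup G) * Nat.card (fx V B ⊔ fx V C : AddSubgroup V)) :=
            Nat.mul_le_mul_right _ h4
        _ < m * m := Nat.mul_lt_mul_of_pos_left hlt hmpos
    omega
  have h10 : jj V (B ⊓ C) = m := le_antisymm h5 (h9.trans h8)
  refine ⟨h10, ?_⟩
  symm
  apply AddSubgroup.eq_of_le_of_card_ge h3
  have h11 : Nat.card (B ⊓ C : Subgroup G) * Nat.card (fx V (B ⊓ C)) ≤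
      Nat.card (B ⊓ C : Subgroup G) * Nat.card (fx V B ⊔ fx V C : AddSubgroup V) := by
    have : Nat.card (B ⊓ C : Subgroup G) * Nat.card (fx V (B ⊓ C)) = m := h10
    rw [this]; exact h9
  exact Nat.le_of_mul_le_mul_left h11 Nat.card_pos

/-- `[v, A]` -/
def clv (A : Subgroup G) (v : V) : AddSubgroup V := AddSubgroup.closure {w | ∃ c ∈ A, w = c • v - v}

/-- `C_A([v, A])` -/
def Asv (A : Subgroup G) (v : V) : Subgroup G where
  carrier := {a | a ∈ A ∧ ∀ c ∈ A, a • (c • v - v) = c • v - v}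
  one_mem' := ⟨A.one_mem, fun c _ => one_smul _ _⟩
  mul_mem' := by
    rintro a b ⟨ha, ha'⟩ ⟨hb, hb'⟩
    exact ⟨A.mul_mem ha hb, fun c hc => by rw [mul_smul, hb' c hc, ha' c hc]⟩
  inv_mem' := by
    rintro a ⟨ha, ha'⟩
    exact ⟨A.inv_mem ha, fun c hc => by rw [inv_smul_eq_iff]; exact (ha' c hc).symm⟩

theorem jj_Asv {A : Subgroup G} (hA : ∀ a ∈ A, ∀ b ∈ A, a * b = b * a)
    (hmax : ∀ B ≤ A, jj V B ≤ jj V A) (v : V) :
    jj V (Asv V A v) = jj V A ∧ fx V (Asv V A v) = clv V A v ⊔ fx V A := by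
  classical
  have hAsle : Asv V A v ≤ A := fun a ha => ha.1
  have hle : clv V A v ⊔ fx V A ≤ fx V (Asv V A v) := by
    refine sup_le ?_ (fx_anti V hAsle)
    rw [clv, AddSubgroup.closure_le]
    rintro w ⟨c, hc, rfl⟩ a ha
    exact ha.2 c hc
  -- counting
  have key : Nat.card A ≤ Nat.card (Asv V A v) * (fx V A).relIndex (clv V A v ⊔ fx V A) := by
    let X : AddSubgroup V := clv V A v ⊔ fx V A
    let f : A → (X ⧸ (fx V A).addSubgroupOf X) := fun a =>
      QuotientAddGroup.mk ⟨(a : G) • v - v, (le_sup_left : clv V A v ≤ _)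
        (AddSubgroup.subset_closure ⟨a, a.2, rfl⟩)⟩
    haveI := Fintype.ofFinite A
    haveI := Fintype.ofFinite (X ⧸ (fx V A).addSubgroupOf X)
    have hfib : ∀ a b : A, f a = f b → ((b : G)⁻¹ * a) ∈ Asv V A v := by
      intro a b hab
      have h1 := QuotientAddGroup.eq.1 hab
      rw [AddSubgroup.mem_addSubgroupOf] at h1
      have h2 : -((a : G) • v - v) + ((b : G) • v - v) ∈ fx V A := h1
      have h3 : (b : G) • v - (a : G) • v ∈ fx V A := by
        convert h2 using 1; abel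
      refine ⟨A.mul_mem (A.inv_mem b.2) a.2, ?_⟩
      intro c hc
      -- d = b⁻¹ a, d v - v fixed by A
      have h4 : ((b : G)⁻¹ * a) • v - v ∈ fx V A := by
        have h5 := (fx V A).neg_mem h3
        have h6 := h5 ((b : G)⁻¹) (A.inv_mem b.2)
        have h7 : ((b : G)⁻¹ * a) • v - v = -((b : G) • v - (a : G) • v) := by
          rw [← h6, smul_neg, smul_sub, inv_smul_smul, mul_smul]; abel
        rw [h7]; exact h5
      have h5 : QQ V ((b : G)⁻¹ * a) c → True := fun _ => trivial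
      have h6 := h4 c hc
      have hcomm := hA c hc _ (A.mul_mem (A.inv_mem b.2) a.2)
      -- (c - 1)(d - 1) v = 0
      have h7 : ((b : G)⁻¹ * a) • c • v = c • v + (((b : G)⁻¹ * a) • v - v) := by
        rw [smul_sub, ← mul_smul, hcomm, mul_smul] at h6
        rw [← h6]; abel
      rw [smul_sub, h7]; abel
    have h1 : Nat.card A ≤ Nat.card (Asv V A v) * Nat.card (X ⧸ (fx V A).addSubgroupOf X) := by
      rw [Nat.card_eq_fintype_card, Nat.card_eq_fintype_card (α := X ⧸ _)]
      have h2 := Finset.card_le_mul_card_image_of_maps_to (s := (Finset.univ : Finset A))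
        (t := (Finset.univ : Finset (X ⧸ (fx V A).addSubgroupOf X))) (f := f)
        (fun _ _ => Finset.mem_univ _) (Nat.card (Asv V A v)) (by
          intro y _
          by_cases hy : ∃ b : A, f b = y
          · obtain ⟨b, rfl⟩ := hy
            let g : {a // a ∈ Finset.filter (fun a => f a = f b) (Finset.univ : Finset A)} → Asv V A v :=
              fun a => ⟨(b : G)⁻¹ * a.1, hfib a.1 b (Finset.mem_filter.1 a.2).2⟩
            have hg : Function.Injective g := by
              intro x y hxy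
              have := congrArg Subtype.val hxy
              exact Subtype.ext (Subtype.ext (mul_left_cancel this))
            have := Nat.card_le_card_of_injective g hg
            rwa [Nat.card_eq_fintype_card, Fintype.card_coe] at this
          · rw [Finset.filter_eq_empty_iff.2, Finset.card_empty]
            · exact Nat.zero_le _
            · intro a _ ha; exact hy ⟨a, ha⟩)
      rwa [Finset.card_univ, Finset.card_univ] at h2
    exact h1
  have h1 := add_card_mul_relIndex V (le_sup_right : fx V A ≤ clv V A v ⊔ fx V A)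
  have h2 : jj V A ≤ Nat.card (Asv V A v) * Nat.card (clv V A v ⊔ fx V A : AddSubgroup V) := by
    calc jj V A = Nat.card A * Nat.card (fx V A) := rfl
      _ ≤ (Nat.card (Asv V A v) * (fx V A).relIndex (clv V A v ⊔ fx V A)) * Nat.card (fx V A) :=
        Nat.mul_le_mul_right _ key
      _ = Nat.card (Asv V A v) * (Nat.card (fx V A) * (fx V A).relIndex (clv V A v ⊔ fx V A)) := by ring
      _ = _ := by rw [h1]
  have h3 : Nat.card (Asv V A v) * Nat.card (clv V A v ⊔ fx V A : AddSubgroup V) ≤ jj V (Asv V A v) :=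
    Nat.mul_le_mul_left _ (AddSubgroup.card_le_of_le hle)
  have h4 : jj V (Asv V A v) ≤ jj V A := hmax _ hAsle
  refine ⟨le_antisymm h4 (h2.trans h3), ?_⟩
  symm
  apply AddSubgroup.eq_of_le_of_card_ge hle
  have h5 : Nat.card (Asv V A v) * Nat.card (fx V (Asv V A v)) ≤
      Nat.card (Asv V A v) * Nat.card (clv V A v ⊔ fx V A : AddSubgroup V) := h4.trans h2
  exact Nat.le_of_mul_le_mul_left h5 Nat.card_pos

/-- Timmesfeld: a nontrivial best offender contains a nontrivial `B` with `[V, A, B] = 0`. -/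
theorem timmesfeld {p : ℕ} [hp : Fact p.Prime] (hV : ∀ v : V, p • v = 0) {A : Subgroup G}
    (hA : ∀ a ∈ A, ∀ b ∈ A, a * b = b * a) (hAp : IsPGroup p A)
    (hmax : ∀ B ≤ A, jj V B ≤ jj V A) (hne : fx V A ≠ ⊤) :
    ∃ B ≤ A, B ≠ ⊥ ∧ jj V B = jj V A ∧ ∀ c ∈ A, ∀ b ∈ B, QQ V c b := by
  classical
  obtain ⟨X, hX1, hX2, hX3⟩ := exists_proper hV hAp hne
  let S : Set (Subgroup G) := {B | B ≤ A ∧ jj V B = jj V A ∧ fx V B ≤ X}
  have hSne : S.Nonempty := ⟨A, le_rfl, rfl, hX2⟩
  obtain ⟨B, ⟨hB1, hB2, hB3⟩, hmin⟩ := Set.exists_min_image S (fun B => Nat.card B)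
    (Set.toFinite _) hSne
  have hclX : ∀ v, clv V A v ≤ X := by
    intro v
    rw [clv, AddSubgroup.closure_le]
    rintro w ⟨c, hc, rfl⟩
    exact hX3 c hc v
  have key : ∀ v : V, B ≤ Asv V A v := by
    intro v
    obtain ⟨h1, h2⟩ := jj_Asv V hA hmax v
    have hle : Asv V A v ≤ A := fun a ha => ha.1
    obtain ⟨h3, h4⟩ := jj_inf V hA hmax hB1 hle hB2 h1
    have h5 : (B ⊓ Asv V A v) ∈ S := by
      refine ⟨inf_le_left.trans hB1, h3, ?_⟩
      rw [h4, h2]
      exact sup_le hB3 (sup_le (hclX v) hX2)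
    have h6 := hmin _ h5
    have h7 := Subgroup.eq_of_le_of_card_ge (inf_le_left : B ⊓ Asv V A v ≤ B) h6
    exact inf_eq_left.1 h7
  refine ⟨B, hB1, ?_, hB2, ?_⟩
  · rintro rfl
    apply hX1
    rw [eq_top_iff]
    refine le_trans ?_ hB3
    intro v _ b hb
    rw [mem_bot] at hb
    rw [hb, one_smul]
  · intro c hc b hb v
    exact (key v hb).2 c hc

end CfsgLib.LE11PGV
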