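import Mathlib
import Cfsg.Agent.EqBase
import Cfsg.Agent.LibLE11PGV2
import Cfsg.Agent.LibComp

set_option autoImplicit false
set_option linter.all false

/-! Core configuration for the P(G,V) theorem (helper11). -/

namespace CfsgLib.LE11PGV

open Subgroup Cfsg
open scoped commutatorElement

variable {G : Type*} [Group G] {V : Type*} [AddCommGroup V] [DistribMulAction G V]

theorem stab {K : Subgroup G} (hK : ⁅K, K⁆ = K) (h : ∀ k ∈ K, ∀ x ∈ K, QQ V k x) :
    ∀ k ∈ K, ∀ v : V, k • v = v := by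
  have key : ∀ k ∈ K, ∀ l ∈ K, ∀ v : V, (k * l) • v = (l * k) • v := by
    intro k hk l hl v
    have h1 := h l hl k hk v
    have h2 := h k hk l hl v
    rw [smul_sub] at h1 h2
    rw [mul_smul, mul_smul]
    have h3 : k • l • v = k • v + (l • v - v) := by rw [← h1]; abel
    have h4 : l • k • v = l • v + (k • v - v) := by rw [← h2]; abel
    rw [h3, h4]; abel
  intro k hk v
  have h1 : ⁅K, K⁆ ≤ MulAction.stabilizer G v := by
    rw [commutator_le]
    intro a ha b hb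
    rw [MulAction.mem_stabilizer_iff, commutatorElement_def]
    have h2 : a * b * a⁻¹ * b⁻¹ = (a * b) * (b * a)⁻¹ := by group
    rw [h2, mul_smul, key a ha b hb, smul_inv_smul]
  rw [hK] at h1
  exact h1 hk

theorem stable_gen {A K : Subgroup G} (hgen : A ⊔ K = ⊤) {X : AddSubgroup V}
    (hA : ∀ a ∈ A, ∀ x ∈ X, a • x ∈ X) (hK : ∀ a ∈ K, ∀ x ∈ X, a • x ∈ X) :
    ∀ g : G, ∀ x ∈ X, g • x ∈ X := by
  let S : Subgroup G :=
    { carrier := {g | (∀ x ∈ X, g • x ∈ X) ∧ (∀ x ∈ X, g⁻¹ • x ∈ X)}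
      one_mem' := by simp
      mul_mem' := by
        rintro a b ⟨ha, ha'⟩ ⟨hb, hb'⟩
        refine ⟨fun x hx => ?_, fun x hx => ?_⟩
        · rw [mul_smul]; exact ha _ (hb _ hx)
        · rw [mul_inv_rev, mul_smul]; exact hb' _ (ha' _ hx)
      inv_mem' := by
        rintro a ⟨ha, ha'⟩
        exact ⟨ha', by rw [inv_inv]; exact ha⟩ }
  have h1 : A ⊔ K ≤ S := sup_le (fun a ha => ⟨hA a ha, hA _ (A.inv_mem ha)⟩)
    (fun a ha => ⟨hK a ha, hK _ (K.inv_mem ha)⟩)
  intro g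
  have h2 : g ∈ S := h1 (by rw [hgen]; trivial)
  exact h2.1

theorem qs_normal {K L : Subgroup G} (hK : IsQuasisimple K) (hL : L ≤ K)
    (hn : ∀ k ∈ K, ∀ l ∈ L, k * l * k⁻¹ ∈ L) : L = K ∨ ∀ l ∈ L, ∀ k ∈ K, l * k = k * l := by
  have h1 : (L.subgroupOf K).Normal := ⟨fun l hl k => by
    rw [mem_subgroupOf] at hl ⊢; exact hn k k.2 l hl⟩
  rcases CfsgLib.Comp.quasisimple_normal hK (L.subgroupOf K) with h | h
  · left
    rw [subgroupOf_eq_top] at h
    exact le_antisymm hL h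
  · right
    intro l hl k hk
    have h2 : (⟨l, hL hl⟩ : K) ∈ center K := h (by rw [mem_subgroupOf]; exact hl)
    have h3 := mem_center_iff.1 h2 ⟨k, hk⟩
    exact (congrArg Subtype.val h3).symm

theorem central_aut {K : Subgroup G} (hK : ⁅K, K⁆ = K) {n : G} (hn : ∀ g ∈ K, n * g * n⁻¹ ∈ K)
    (hc : ∀ g ∈ K, ∀ k ∈ K, (n * g * n⁻¹ * g⁻¹) * k = k * (n * g * n⁻¹ * g⁻¹)) :
    ∀ k ∈ K, n * k = k * n := by
  have h1 : ⁅K, K⁆ ≤ centralizer ({n} : Set G) := by
    rw [commutator_le]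
    intro g hg h hh
    rw [mem_centralizer_singleton_iff, commutatorElement_def]
    have hcg := hc g hg
    have hch := hc h hh
    have hcgK : n * g * n⁻¹ * g⁻¹ ∈ K := K.mul_mem (hn g hg) (K.inv_mem hg)
    have hchK : n * h * n⁻¹ * h⁻¹ ∈ K := K.mul_mem (hn h hh) (K.inv_mem hh)
    generalize ha : n * g * n⁻¹ * g⁻¹ = a at hcg hcgK
    generalize hb : n * h * n⁻¹ * h⁻¹ = b at hch hchK
    have e1 : n * g * n⁻¹ = a * g := by rw [← ha]; group
    have e2 : n * h * n⁻¹ = b * h := by rw [← hb]; group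
    have key : n * (g * h * g⁻¹ * h⁻¹) * n⁻¹ = g * h * g⁻¹ * h⁻¹ := by
      calc n * (g * h * g⁻¹ * h⁻¹) * n⁻¹ = (n * g * n⁻¹) * (n * h * n⁻¹) * (n * g * n⁻¹)⁻¹ *
            (n * h * n⁻¹)⁻¹ := by group
        _ = (a * g) * (b * h) * (a * g)⁻¹ * (b * h)⁻¹ := by rw [e1, e2]
        _ = a * (g * b) * h * g⁻¹ * a⁻¹ * h⁻¹ * b⁻¹ := by group
        _ = a * (b * g) * h * g⁻¹ * a⁻¹ * h⁻¹ * b⁻¹ := by rw [hch g hg]
        _ = (a * b) * (g * h * g⁻¹ * a⁻¹ * h⁻¹) * b⁻¹ := by group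
        _ = (b * a) * (g * h * g⁻¹ * a⁻¹ * h⁻¹) * b⁻¹ := by rw [hcg b hchK]
        _ = b * (a * (g * h * g⁻¹)) * a⁻¹ * h⁻¹ * b⁻¹ := by group
        _ = b * ((g * h * g⁻¹) * a) * a⁻¹ * h⁻¹ * b⁻¹ := by
            rw [hcg _ (K.mul_mem (K.mul_mem hg hh) (K.inv_mem hg))]
        _ = (b * (g * h * g⁻¹ * h⁻¹)) * b⁻¹ := by group
        _ = ((g * h * g⁻¹ * h⁻¹) * b) * b⁻¹ := by
            rw [hch _ (K.mul_mem (K.mul_mem (K.mul_mem hg hh) (K.inv_mem hg)) (K.inv_mem hh))]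
        _ = g * h * g⁻¹ * h⁻¹ := by group
    calc g * h * g⁻¹ * h⁻¹ * n = (n * (g * h * g⁻¹ * h⁻¹) * n⁻¹) * n := by rw [key]
      _ = n * (g * h * g⁻¹ * h⁻¹) := by group
  rw [hK] at h1
  intro k hk
  exact (mem_centralizer_singleton_iff.1 (h1 hk)).symm

/-- core hypotheses -/
structure Core (p : ℕ) (V : Type*) [AddCommGroup V] [DistribMulAction G V] (A K : Subgroup G) : Prop where
  hV : ∀ v : V, p • v = 0
  comm : ∀ a ∈ A, ∀ b ∈ A, a * b = b * a
  exp : ∀ a ∈ A, a ^ p = 1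
  qs : IsQuasisimple K
  dich : ∀ a ∈ A, a ∈ normalizer (K : Set G) ∨
    ∀ k ∈ K, ∀ l ∈ K, k * (a * l * a⁻¹) = (a * l * a⁻¹) * k
  gen : A ⊔ K = ⊤
  irr : ∀ X : AddSubgroup V, (∀ g : G, ∀ x ∈ X, g • x ∈ X) → X ≠ ⊤ → ∀ k ∈ K, ∀ x ∈ X, k • x = x
  off : ∀ B ≤ A, jj V B ≤ jj V A

section core

variable {p : ℕ} [hp : Fact p.Prime] [Finite G] [Finite V] [FaithfulSMul G V] {A K : Subgroup G}
  (C : Core p V A K)
include C

theorem Core.perf : ⁅K, K⁆ = K := CfsgLib.Comp.quasisimple_commutator C.qs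

theorem Core.nontriv : ¬ ∀ k ∈ K, ∀ v : V, k • v = v := by
  intro h
  apply CfsgLib.Comp.quasisimple_ne_bot C.qs
  rw [eq_bot_iff]
  intro k hk
  rw [mem_bot]
  apply eq_of_smul_eq_smul (α := V)
  intro v
  rw [h k hk, one_smul]

theorem Core.isP : IsPGroup p A := fun a => ⟨1, by
  rw [pow_one]; exact Subtype.ext (C.exp a a.2)⟩

theorem Core.eq_one {a : G} (ha : a ∈ A) (hc : ∀ k ∈ K, a * k = k * a) : a = 1 := by
  have hcent : ∀ g : G, a * g = g * a := by
    intro g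
    have h1 : A ⊔ K ≤ centralizer ({a} : Set G) := by
      refine sup_le ?_ ?_
      · intro b hb; rw [mem_centralizer_singleton_iff]; exact C.comm b hb a ha
      · intro k hk; rw [mem_centralizer_singleton_iff]; exact (hc k hk).symm
    have h2 := h1 (by rw [C.gen]; trivial : g ∈ A ⊔ K)
    rw [mem_centralizer_singleton_iff] at h2
    exact h2.symm
  -- X = range (a - 1)
  let f : V →+ V := (DistribSMul.toAddMonoidHom V a) - AddMonoidHom.id V
  have hf : ∀ v, f v = a • v - v := fun v => rfl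
  have hXs : ∀ g : G, ∀ x ∈ f.range, g • x ∈ f.range := by
    rintro g _ ⟨v, rfl⟩
    refine ⟨g • v, ?_⟩
    rw [hf, hf, smul_sub, ← mul_smul, hcent, mul_smul]
  have hnt : Nontrivial V := by
    by_contra h
    rw [not_nontrivial_iff_subsingleton] at h
    exact C.nontriv (V := V) (fun k _ v => Subsingleton.elim _ _)
  have hX : f.range ≠ ⊤ := by
    intro h
    have hsurj : Function.Surjective f := AddMonoidHom.range_eq_top.1 h
    have hinj := (Finite.injective_iff_surjective (f := (f : V → V))).2 hsurj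
    have hz : IsPGroup p (zpowers a) := C.isP.to_le (zpowers_le.2 ha)
    obtain ⟨y, -, hy0, hy⟩ := exists_fixed_sub (p := p) C.hV hz (Y := ⊤)
      (fun _ _ _ _ => trivial) (by
        intro h; exact top_ne_bot h)
    apply hy0
    apply hinj
    rw [hf, hy a (mem_zpowers a), sub_self, map_zero]
  have h1 := C.irr f.range hXs hX
  have h2 : ∀ k ∈ K, QQ V k a := by
    intro k hk
    have h3 : QQ V a k := fun v => h1 k hk _ ⟨v, rfl⟩
    exact h3.symm (hc k hk)
  -- fixed points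
  let Y : AddSubgroup V :=
    { carrier := {v | a • v = v}
      zero_mem' := smul_zero a
      add_mem' := by intro u v hu hv; show a • (u + v) = u + v; rw [smul_add, hu, hv]
      neg_mem' := by intro u hu; show a • (-u) = -u; rw [smul_neg, hu] }
  have hYs : ∀ g : G, ∀ x ∈ Y, g • x ∈ Y := by
    intro g x hx
    show a • g • x = g • x
    rw [← mul_smul, hcent, mul_smul, hx]
  by_cases hY : Y = ⊤
  · apply eq_of_smul_eq_smul (α := V)
    intro v
    rw [one_smul]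
    have : v ∈ Y := by rw [hY]; trivial
    exact this
  · exfalso
    have h3 := C.irr Y hYs hY
    apply C.nontriv (V := V)
    apply stab C.perf
    intro k hk x hx v
    exact h3 x hx _ (h2 k hk v)

end core

/-! ### the diagonal -/

/-- partial products of conjugates -/
def PP (b g : G) : ℕ → G
  | 0 => 1
  | n + 1 => PP b g n * (b ^ n * g * (b ^ n)⁻¹)

theorem PP_eq (b g : G) (n : ℕ) : PP b g n = (g * b) ^ n * (b ^ n)⁻¹ := by
  induction n with
  | zero => simp [PP]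
  | succ n ih =>
    rw [PP, ih, pow_succ (g * b), pow_succ b]; group

theorem PP_commute {b g x : G} {n : ℕ} (h : ∀ i < n, x * (b ^ i * g * (b ^ i)⁻¹) = (b ^ i * g * (b ^ i)⁻¹) * x) :
    x * PP b g n = PP b g n * x := by
  induction n with
  | zero => simp [PP]
  | succ n ih =>
    rw [PP, ← mul_assoc, ih (fun i hi => h i (by omega)), mul_assoc, h n (by omega), ← mul_assoc]

theorem PP_conj {b g x : G} (h : x * b = b * x) (n : ℕ) : x * PP b g n * x⁻¹ = PP b (x * g * x⁻¹) n := by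
  rw [PP_eq, PP_eq]
  have hc : Commute x (b ^ n) := (show Commute x b from h).pow_right n
  have h1 : x * g * x⁻¹ * b = x * (g * b) * x⁻¹ := by
    have : x⁻¹ * b = b * x⁻¹ := by
      rw [inv_mul_eq_iff_eq_mul, ← mul_assoc, h, mul_assoc, mul_inv_cancel, mul_one]
    calc x * g * x⁻¹ * b = x * g * (x⁻¹ * b) := by group
      _ = x * (g * b) * x⁻¹ := by rw [this]; group
  rw [h1, conj_pow]
  have h2 : (b ^ n)⁻¹ * x⁻¹ = x⁻¹ * (b ^ n)⁻¹ := by
    have := hc.eq
    rw [← mul_inv_rev, ← mul_inv_rev, this]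
  calc x * ((g * b) ^ n * (b ^ n)⁻¹) * x⁻¹ = x * (g * b) ^ n * ((b ^ n)⁻¹ * x⁻¹) := by group
    _ = _ := by rw [h2]; group

section core

variable {p : ℕ} [hp : Fact p.Prime] [Finite G] [Finite V] [FaithfulSMul G V] {A K : Subgroup G}
  (C : Core p V A K) {b : G} (hb : b ∈ A) (hbN : b ∉ normalizer (K : Set G))
include C

theorem Core.cc {a : G} (ha : a ∈ A) (haN : a ∉ normalizer (K : Set G)) :
    ∀ k ∈ K, ∀ l ∈ K, k * (a * l * a⁻¹) = (a * l * a⁻¹) * k := (C.dich a ha).resolve_left haN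

include hb hbN

theorem Core.pow_notMem {i : ℕ} (hi : 0 < i) (hip : i < p) : b ^ i ∉ normalizer (K : Set G) := by
  intro h
  apply hbN
  have h1 : Nat.Coprime i p := ((Nat.Prime.coprime_iff_not_dvd hp.out).2
    (Nat.not_dvd_of_pos_of_lt hi hip)).symm
  have h2 : b ∈ zpowers (b ^ i) := by
    have h3 : Nat.Coprime i (orderOf b) :=
      Nat.Coprime.coprime_dvd_right (orderOf_dvd_of_pow_eq_one (C.exp b hb)) h1
    exact mem_zpowers_pow_iff.2 h3
  exact (zpowers_le.2 h) h2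

theorem Core.comm_pow {i : ℕ} (hi : 0 < i) (hip : i < p) :
    ∀ k ∈ K, ∀ l ∈ K, k * (b ^ i * l * (b ^ i)⁻¹) = (b ^ i * l * (b ^ i)⁻¹) * k :=
  C.cc (A.pow_mem hb i) (C.pow_notMem hb hbN hi hip)

theorem Core.comm_pow2 {i j : ℕ} (hij : i < j) (hjp : j < p) :
    ∀ k ∈ K, ∀ l ∈ K, (b ^ i * k * (b ^ i)⁻¹) * (b ^ j * l * (b ^ j)⁻¹) =
      (b ^ j * l * (b ^ j)⁻¹) * (b ^ i * k * (b ^ i)⁻¹) := by
  intro k hk l hl
  obtain ⟨m, rfl⟩ := Nat.exists_eq_add_of_lt hij
  have h1 := C.comm_pow hb hbN (i := m + 1) (by omega) (by omega) k hk l hl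
  have h2 : b ^ (i + m + 1) = b ^ i * b ^ (m + 1) := by rw [← pow_add]; ring_nf
  rw [h2]
  calc b ^ i * k * (b ^ i)⁻¹ * (b ^ i * b ^ (m + 1) * l * (b ^ i * b ^ (m + 1))⁻¹) =
      b ^ i * (k * (b ^ (m + 1) * l * (b ^ (m + 1))⁻¹)) * (b ^ i)⁻¹ := by group
    _ = b ^ i * ((b ^ (m + 1) * l * (b ^ (m + 1))⁻¹) * k) * (b ^ i)⁻¹ := by rw [h1]
    _ = _ := by group

theorem Core.PP_mul {g h : G} (hg : g ∈ K) (hh : h ∈ K) {n : ℕ} (hn : n ≤ p) :
    PP b (g * h) n = PP b g n * PP b h n := by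
  induction n with
  | zero => simp [PP]
  | succ n ih =>
    rw [PP, PP, PP, ih (by omega)]
    have h1 : (b ^ n * g * (b ^ n)⁻¹) * PP b h n = PP b h n * (b ^ n * g * (b ^ n)⁻¹) := by
      apply PP_commute
      intro i hi
      exact (C.comm_pow2 hb hbN hi (by omega) h hh g hg).symm
    calc PP b g n * PP b h n * (b ^ n * (g * h) * (b ^ n)⁻¹) =
        PP b g n * (PP b h n * (b ^ n * g * (b ^ n)⁻¹)) * (b ^ n * h * (b ^ n)⁻¹) := by group
      _ = PP b g n * ((b ^ n * g * (b ^ n)⁻¹) * PP b h n) * (b ^ n * h * (b ^ n)⁻¹) := by rw [h1]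
      _ = _ := by group

theorem Core.PP_comm_self {g : G} (hg : g ∈ K) : g * PP b g p = PP b g p * g := by
  apply PP_commute
  intro i hi
  rcases Nat.eq_zero_or_pos i with rfl | h0
  · simp
  · exact C.comm_pow hb hbN h0 hi g hg g hg

theorem Core.PP_comm_b {g : G} (hg : g ∈ K) : b * PP b g p = PP b g p * b := by
  have h1 := C.PP_comm_self hb hbN hg
  have h2 : PP b g p = (g * b) ^ p := by rw [PP_eq, C.exp b hb, inv_one, mul_one]
  rw [h2] at h1 ⊢
  have h3 : b * (g * b) ^ p * b⁻¹ = g⁻¹ * (g * b) ^ p * g := by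
    rw [← conj_pow]
    have h4 : b * (g * b) * b⁻¹ = g⁻¹ * (g * b) * g⁻¹⁻¹ := by group
    rw [h4, conj_pow, inv_inv]
  have h5 : g⁻¹ * (g * b) ^ p * g = (g * b) ^ p := by
    rw [mul_assoc, ← h1]; group
  calc b * (g * b) ^ p = (b * (g * b) ^ p * b⁻¹) * b := by group
    _ = (g * b) ^ p * b := by rw [h3, h5]

theorem Core.PP_rest {g : G} (hg : g ∈ K) {n : ℕ} (hn : n + 1 ≤ p) :
    ∀ k ∈ K, k * (g⁻¹ * PP b g (n + 1)) = (g⁻¹ * PP b g (n + 1)) * k := by
  intro k hk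
  induction n with
  | zero => simp [PP]
  | succ n ih =>
    rw [PP, ← mul_assoc g⁻¹, ← mul_assoc, ih (by omega), mul_assoc,
      C.comm_pow hb hbN (i := n + 1) (by omega) (by omega) k hk g hg, ← mul_assoc]

theorem Core.star_aux (S : Subgroup G) (hS : ∀ x, x * b = b * x → ∀ s ∈ S, x * s * x⁻¹ ∈ S)
    {a : G} (ha : a ∈ A) (haS : a ∈ S) (hab : a ∉ zpowers b) : ∀ g ∈ K, PP b g p ∈ S := by
  have hd1 : PP b (1 : G) p = 1 := by
    rw [PP_eq, one_mul, mul_inv_cancel]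
  have hmul : ∀ g ∈ K, ∀ h ∈ K, PP b (g * h) p = PP b g p * PP b h p := fun g hg h hh =>
    C.PP_mul hb hbN hg hh le_rfl
  have hinv : ∀ g ∈ K, PP b g⁻¹ p = (PP b g p)⁻¹ := by
    intro g hg
    have h1 := hmul g hg g⁻¹ (K.inv_mem hg)
    rw [mul_inv_cancel, hd1] at h1
    exact (inv_eq_of_mul_eq_one_right h1.symm).symm
  let L : Subgroup G :=
    { carrier := {g | g ∈ K ∧ PP b g p ∈ S}
      one_mem' := ⟨K.one_mem, by rw [hd1]; exact S.one_mem⟩
      mul_mem' := by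
        rintro x y ⟨hx, hx'⟩ ⟨hy, hy'⟩
        exact ⟨K.mul_mem hx hy, by rw [hmul x hx y hy]; exact S.mul_mem hx' hy'⟩
      inv_mem' := by
        rintro x ⟨hx, hx'⟩
        exact ⟨K.inv_mem hx, by rw [hinv x hx]; exact S.inv_mem hx'⟩ }
  have hLK : L ≤ K := fun x hx => hx.1
  have hLn : ∀ k ∈ K, ∀ l ∈ L, k * l * k⁻¹ ∈ L := by
    rintro k hk l ⟨hl, hl'⟩
    refine ⟨K.mul_mem (K.mul_mem hk hl) (K.inv_mem hk), ?_⟩
    rw [hmul _ (K.mul_mem hk hl) _ (K.inv_mem hk), hmul k hk l hl, hinv k hk]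
    exact hS _ (C.PP_comm_b hb hbN hk).symm _ hl'
  suffices hL : L = K by
    intro g hg
    rw [← hL] at hg
    exact hg.2
  have hab' : a * b = b * a := C.comm a ha b hb
  by_cases hcase : ∃ i : ℤ, b ^ i * a ∈ normalizer (K : Set G)
  · obtain ⟨i, hi⟩ := hcase
    set n := b ^ i * a with hn
    have hnA : n ∈ A := A.mul_mem (A.zpow_mem hb i) ha
    have hnb : n * b = b * n := C.comm n hnA b hb
    have hnK : ∀ g ∈ K, n * g * n⁻¹ ∈ K := fun g hg => (mem_normalizer_iff.1 hi g).1 hg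
    have hmem : ∀ g ∈ K, n * g * n⁻¹ * g⁻¹ ∈ L := by
      intro g hg
      refine ⟨K.mul_mem (hnK g hg) (K.inv_mem hg), ?_⟩
      rw [hmul _ (hnK g hg) _ (K.inv_mem hg), hinv g hg, ← PP_conj hnb]
      have hbd := C.PP_comm_b hb hbN hg
      have h1 : n * PP b g p * n⁻¹ = a * PP b g p * a⁻¹ := by
        have hc : Commute (b ^ i) (PP b g p) := (show Commute b (PP b g p) from hbd).zpow_left i
        have hc2 : Commute (b ^ i) a := (show Commute b a from hab'.symm).zpow_left i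
        calc n * PP b g p * n⁻¹ = (b ^ i * a) * PP b g p * (b ^ i * a)⁻¹ := by rw [hn]
          _ = (a * b ^ i) * PP b g p * (a * b ^ i)⁻¹ := by rw [hc2.eq]
          _ = a * (b ^ i * PP b g p * (b ^ i)⁻¹) * a⁻¹ := by group
          _ = a * PP b g p * a⁻¹ := by rw [hc.eq]; group
      rw [h1]
      have h2 : a * PP b g p * a⁻¹ * (PP b g p)⁻¹ = a * (PP b g p * a⁻¹ * (PP b g p)⁻¹) := by group
      rw [h2]
      exact S.mul_mem haS (hS _ hbd.symm _ (S.inv_mem haS))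
    rcases qs_normal C.qs hLK hLn with h | h
    · exact h
    · exfalso
      have h1 := central_aut C.perf hnK (fun g hg k hk => h _ (hmem g hg) k hk)
      have h2 := C.eq_one hnA h1
      apply hab
      have h3 : a = b ^ (-i) := by
        have : b ^ i * a = 1 := by rw [← hn, h2]
        rw [zpow_neg]; exact (inv_eq_of_mul_eq_one_right this).symm
      rw [h3]; exact zpow_mem (mem_zpowers b) _
  · push Not at hcase
    have hcomm : ∀ g ∈ K, ∀ h ∈ K, PP b h p * (a * PP b g p * a⁻¹) = (a * PP b g p * a⁻¹) * PP b h p := by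
      intro g hg h hh
      rw [PP_conj hab']
      symm
      apply PP_commute
      intro j hj
      symm
      apply PP_commute
      intro i hi
      -- cj j h commutes with b^i a g a⁻¹ b^-i
      have h1 := C.cc (A.mul_mem (A.zpow_mem hb ((i : ℤ) - j)) ha) (hcase _) h hh g hg
      have h2 : b ^ ((i : ℤ) - j) = (b ^ j)⁻¹ * b ^ i := by
        rw [sub_eq_neg_add, zpow_add, zpow_neg, zpow_natCast, zpow_natCast]
      rw [h2] at h1
      calc b ^ j * h * (b ^ j)⁻¹ * (b ^ i * (a * g * a⁻¹) * (b ^ i)⁻¹) =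
          b ^ j * (h * ((b ^ j)⁻¹ * b ^ i * a * g * ((b ^ j)⁻¹ * b ^ i * a)⁻¹)) * (b ^ j)⁻¹ := by group
        _ = b ^ j * (((b ^ j)⁻¹ * b ^ i * a * g * ((b ^ j)⁻¹ * b ^ i * a)⁻¹) * h) * (b ^ j)⁻¹ := by rw [h1]
        _ = _ := by group
    have hs : ∀ g ∈ K, a * PP b g p * a⁻¹ * (PP b g p)⁻¹ ∈ S := by
      intro g hg
      have h2 : a * PP b g p * a⁻¹ * (PP b g p)⁻¹ = a * (PP b g p * a⁻¹ * (PP b g p)⁻¹) := by group
      rw [h2]
      exact S.mul_mem haS (hS _ (C.PP_comm_b hb hbN hg).symm _ (S.inv_mem haS))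
    have hLcomm : ⁅K, K⁆ ≤ L := by
      rw [commutator_le]
      intro g hg h hh
      rw [commutatorElement_def]
      refine ⟨K.mul_mem (K.mul_mem (K.mul_mem hg hh) (K.inv_mem hg)) (K.inv_mem hh), ?_⟩
      rw [hmul _ (K.mul_mem (K.mul_mem hg hh) (K.inv_mem hg)) _ (K.inv_mem hh),
        hmul _ (K.mul_mem hg hh) _ (K.inv_mem hg), hmul g hg h hh, hinv g hg, hinv h hh]
      have h1 := hs g hg
      have h2 := hs h hh
      have h3 := hs _ (K.mul_mem hg hh)
      rw [hmul g hg h hh] at h3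
      have h4 := hcomm h hh g hg
      generalize PP b g p = x at *
      generalize PP b h p = y at *
      have h5 : x * y * x⁻¹ * y⁻¹ = (a * (x * y) * a⁻¹ * (x * y)⁻¹)⁻¹ *
          ((a * x * a⁻¹ * x⁻¹) * (a * y * a⁻¹ * y⁻¹)) := by
        have h6 : x⁻¹ * (a * y * a⁻¹) = (a * y * a⁻¹) * x⁻¹ := by
          rw [inv_mul_eq_iff_eq_mul, ← mul_assoc, h4]; group
        calc x * y * x⁻¹ * y⁻¹ = (a * (x * y) * a⁻¹ * (x * y)⁻¹)⁻¹ *
              ((a * x * a⁻¹) * ((a * y * a⁻¹) * x⁻¹) * y⁻¹) := by group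
          _ = (a * (x * y) * a⁻¹ * (x * y)⁻¹)⁻¹ * ((a * x * a⁻¹) * (x⁻¹ * (a * y * a⁻¹)) * y⁻¹) := by
              rw [h6]
          _ = _ := by group
      rw [h5]
      exact S.mul_mem (S.inv_mem h3) (S.mul_mem h1 h2)
    rw [C.perf] at hLcomm
    exact le_antisymm hLK hLcomm

theorem Core.ne_one : b ≠ 1 := by
  rintro rfl
  exact hbN (one_mem _)

theorem Core.star : ∀ g ∈ K, QQ V (PP b g p) b := by
  classical
  have hb1 : b ≠ 1 := C.ne_one hb hbN
  have hbp : orderOf b = p := orderOf_eq_prime (C.exp b hb) hb1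
  have hne : fx V A ≠ ⊤ := by
    intro h
    apply hb1
    apply eq_of_smul_eq_smul (α := V)
    intro v
    have h1 : v ∈ fx V A := by rw [h]; trivial
    rw [one_smul]; exact h1 b hb
  obtain ⟨B, hBA, hB1, -, hBq⟩ := timmesfeld V C.hV C.comm C.isP C.off hne
  have hS : ∀ x, x * b = b * x → ∀ s ∈ LL V b, x * s * x⁻¹ ∈ LL V b := by
    intro x hx s hs
    have h1 : QQ V (x * s * x⁻¹) (x * b * x⁻¹) := QQ.conj hs x
    have h2 : x * b * x⁻¹ = b := by rw [hx]; group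
    rw [h2] at h1
    exact h1
  have hfin : ∀ a ∈ A, QQ V a b → a ∉ zpowers b → ∀ g ∈ K, QQ V (PP b g p) b :=
    fun a ha hq hz => C.star_aux hb hbN (LL V b) hS ha hq hz
  by_cases h1 : ∃ a ∈ B, a ∉ zpowers b
  · obtain ⟨a, haB, hab⟩ := h1
    exact hfin a (hBA haB) ((hBq b hb a haB).symm (C.comm b hb a (hBA haB))) hab
  push Not at h1
  have hbB : b ∈ B := by
    obtain ⟨⟨c, hc⟩, hc1⟩ := Subgroup.ne_bot_iff_exists_ne_one.1 hB1
    have hc1' : c ≠ 1 := fun h => hc1 (Subtype.ext h)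
    have h2 : zpowers c ≤ zpowers b := zpowers_le.2 (h1 c hc)
    have h3 : zpowers c = zpowers b := by
      apply eq_of_le_of_card_ge h2
      rw [Nat.card_zpowers, Nat.card_zpowers, hbp, orderOf_eq_prime (C.exp c (hBA hc)) hc1']
    have h4 : b ∈ zpowers c := by rw [h3]; exact mem_zpowers b
    exact (zpowers_le.2 hc) h4
  by_cases h2 : ∃ a ∈ A, a ∉ zpowers b
  · obtain ⟨a, haA, hab⟩ := h2
    exact hfin a haA (hBq a haA b hbB) hab
  push Not at h2
  have hAb : A = zpowers b := le_antisymm h2 (zpowers_le.2 hb)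
  -- the image of b - 1
  let f : V →+ V := (DistribSMul.toAddMonoidHom V b) - AddMonoidHom.id V
  have hf : ∀ v, f v = b • v - v := fun v => rfl
  have hker : f.ker = fx V A := by
    ext v
    rw [AddMonoidHom.mem_ker, hf, sub_eq_zero]
    constructor
    · intro h c hc
      have h3 : A ≤ MulAction.stabilizer G v := by
        rw [hAb, zpowers_le]; exact h
      exact h3 hc
    · intro h; exact h b hb
  have hcard : Nat.card f.range ≤ p := by
    have h3 := C.off ⊥ bot_le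
    have h4 : fx V (⊥ : Subgroup G) = ⊤ := by
      rw [eq_top_iff]; intro v _ c hc
      rw [mem_bot] at hc; rw [hc, one_smul]
    rw [jj, jj, h4, card_bot, one_mul, AddSubgroup.card_top, hAb, Nat.card_zpowers, hbp, ← hAb, ← hker] at h3
    have h5 : Nat.card f.range * Nat.card f.ker = Nat.card V := by
      rw [← f.ker.card_mul_index, mul_comm, AddSubgroup.index_ker]
    rw [← h5] at h3
    exact Nat.le_of_mul_le_mul_right h3 Nat.card_pos
  have hcyc : ∃ i0 ∈ f.range, f.range = AddSubgroup.zmultiples i0 := by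
    by_cases hr : f.range = ⊥
    · exact ⟨0, zero_mem _, by rw [hr, AddSubgroup.zmultiples_zero_eq_bot]⟩
    · obtain ⟨⟨i0, hi0⟩, hi1⟩ := AddSubgroup.ne_bot_iff_exists_ne_zero.1 hr
      have hi1' : i0 ≠ 0 := fun h => hi1 (Subtype.ext h)
      refine ⟨i0, hi0, ?_⟩
      symm
      apply AddSubgroup.eq_of_le_of_card_ge
      · rw [AddSubgroup.zmultiples_le]; exact hi0
      · rw [Nat.card_zmultiples, addOrderOf_eq_prime (C.hV i0) hi1']; exact hcard
  obtain ⟨i0, hi0, hi0'⟩ := hcyc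
  have hcomm : ∀ x y : G, x * b = b * x → y * b = b * y → ∀ w ∈ f.range, (x * y) • w = (y * x) • w := by
    intro x y hx hy w hw
    have hst : ∀ z : G, z * b = b * z → z • i0 ∈ f.range := by
      intro z hz
      obtain ⟨v, hv⟩ := hi0
      refine ⟨z • v, ?_⟩
      rw [← hv, hf, hf, smul_sub, ← mul_smul, ← mul_smul, hz]
    have h3 := hst x hx
    have h4 := hst y hy
    rw [hi0', AddSubgroup.mem_zmultiples_iff] at h3 h4 hw
    obtain ⟨m, hm⟩ := h3
    obtain ⟨n, hn⟩ := h4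
    obtain ⟨k, rfl⟩ := hw
    have hz : ∀ (z : G) (j : ℤ) (v : V), z • (j • v) = j • (z • v) := fun z j v =>
      map_zsmul (DistribSMul.toAddMonoidHom V z) j v
    rw [mul_smul, mul_smul, hz, hz, hz, hz, ← hm, ← hn, hz, hz, ← hm, ← hn, smul_comm m n i0]
  have hmul : ∀ g ∈ K, ∀ h ∈ K, PP b (g * h) p = PP b g p * PP b h p := fun g hg h hh =>
    C.PP_mul hb hbN hg hh le_rfl
  have hd1 : PP b (1 : G) p = 1 := by
    rw [PP_eq, one_mul, mul_inv_cancel]
  have hinv : ∀ g ∈ K, PP b g⁻¹ p = (PP b g p)⁻¹ := by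
    intro g hg
    have h1 := hmul g hg g⁻¹ (K.inv_mem hg)
    rw [mul_inv_cancel, hd1] at h1
    exact (inv_eq_of_mul_eq_one_right h1.symm).symm
  let L : Subgroup G :=
    { carrier := {g | g ∈ K ∧ PP b g p ∈ RR V b}
      one_mem' := ⟨K.one_mem, by rw [hd1]; exact (RR V b).one_mem⟩
      mul_mem' := by
        rintro x y ⟨hx, hx'⟩ ⟨hy, hy'⟩
        exact ⟨K.mul_mem hx hy, by rw [hmul x hx y hy]; exact (RR V b).mul_mem hx' hy'⟩
      inv_mem' := by
        rintro x ⟨hx, hx'⟩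
        exact ⟨K.inv_mem hx, by rw [hinv x hx]; exact (RR V b).inv_mem hx'⟩ }
  have hLcomm : ⁅K, K⁆ ≤ L := by
    rw [commutator_le]
    intro g hg h hh
    rw [commutatorElement_def]
    refine ⟨K.mul_mem (K.mul_mem (K.mul_mem hg hh) (K.inv_mem hg)) (K.inv_mem hh), ?_⟩
    rw [hmul _ (K.mul_mem (K.mul_mem hg hh) (K.inv_mem hg)) _ (K.inv_mem hh),
      hmul _ (K.mul_mem hg hh) _ (K.inv_mem hg), hmul g hg h hh, hinv g hg, hinv h hh]
    intro v
    have hx := (C.PP_comm_b hb hbN hg).symm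
    have hy := (C.PP_comm_b hb hbN hh).symm
    generalize PP b g p = x at *
    generalize PP b h p = y at *
    have h3 : (y * x)⁻¹ * b = b * (y * x)⁻¹ := by
      have : Commute (y * x) b := (show Commute y b from hy).mul_left hx
      exact this.inv_left.eq
    have h4 : x * y * x⁻¹ * y⁻¹ = (x * y) * (y * x)⁻¹ := by group
    have h5 : (y * x)⁻¹ • (b • v - v) ∈ f.range := by
      refine ⟨(y * x)⁻¹ • v, ?_⟩
      rw [hf, smul_sub, ← mul_smul, ← mul_smul, h3]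
    rw [h4, mul_smul, hcomm x y hx hy _ h5, smul_inv_smul]
  rw [C.perf] at hLcomm
  intro g hg
  have h3 : QQ V b (PP b g p) := (hLcomm hg).2
  exact h3.symm (C.PP_comm_b hb hbN hg)

end core

end CfsgLib.LE11PGV
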