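import Mathlib
import Cfsg.Agent.EqBase
import Cfsg.Agent.LibLE11PGV5

set_option autoImplicit false
set_option linter.all false

/-! Core configuration for the P(G,V) theorem, part 2 (helper11). -/

namespace CfsgLib.LE11PGV

open Subgroup Cfsg
open scoped commutatorElement

variable {G : Type*} [Group G] {V : Type*} [AddCommGroup V] [DistribMulAction G V]

theorem stab_vec {K : Subgroup G} (hK : ⁅K, K⁆ = K) {u : V}
    (h : ∀ x ∈ K, ∀ k ∈ K, k • (x • u - u) = x • u - u) : ∀ k ∈ K, k • u = u := by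
  have key : ∀ k ∈ K, ∀ l ∈ K, (k * l) • u = (l * k) • u := by
    intro k hk l hl
    have h1 := h l hl k hk
    have h2 := h k hk l hl
    rw [smul_sub] at h1 h2
    rw [mul_smul, mul_smul]
    have h3 : k • l • u = k • u + (l • u - u) := by rw [← h1]; abel
    have h4 : l • k • u = l • u + (k • u - u) := by rw [← h2]; abel
    rw [h3, h4]; abel
  intro k hk
  have h1 : ⁅K, K⁆ ≤ MulAction.stabilizer G u := by
    rw [commutator_le]
    intro a ha b hb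
    rw [MulAction.mem_stabilizer_iff, commutatorElement_def]
    have h2 := key a⁻¹ (K.inv_mem ha) b⁻¹ (K.inv_mem hb)
    have h3 : a * b * a⁻¹ * b⁻¹ = (b⁻¹ * a⁻¹)⁻¹ * (a⁻¹ * b⁻¹) := by group
    rw [h3, mul_smul, h2, inv_smul_smul]
  rw [hK] at h1
  exact h1 hk

variable {p : ℕ} [hp : Fact p.Prime] [Finite G] [Finite V] [FaithfulSMul G V] {A K : Subgroup G}
  (C : Core p V A K)
include C

theorem Core.exists_noncentral : ∃ g ∈ K, ¬ ∀ k ∈ K, g * k = k * g := by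
  by_contra h
  push Not at h
  apply CfsgLib.Comp.quasisimple_ne_bot C.qs
  rw [← C.perf, eq_bot_iff, commutator_le]
  intro a ha b hb
  rw [mem_bot, commutatorElement_def, h a ha b hb]; group

theorem Core.comm_normal_eq {L : Subgroup G} (hL : L ≤ K) (hn : ∀ k ∈ K, ∀ l ∈ L, k * l * k⁻¹ ∈ L)
    {g : G} (hg : g ∈ K) (hgc : ¬ ∀ k ∈ K, g * k = k * g) (h : ∀ k ∈ K, k * g * k⁻¹ * g⁻¹ ∈ L) :
    L = K := by
  rcases qs_normal C.qs hL hn with h1 | h1
  · exact h1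
  · exfalso
    apply hgc
    apply central_aut C.perf (fun k hk => K.mul_mem (K.mul_mem hg hk) (K.inv_mem hg))
    intro k hk l hl
    have h2 := h1 _ (L.inv_mem (h k hk)) l hl
    have h3 : (k * g * k⁻¹ * g⁻¹)⁻¹ = g * k * g⁻¹ * k⁻¹ := by group
    rwa [h3] at h2

theorem Core.F4 {b c g d : G} (hb : b ∈ A) (hbN : b ∉ normalizer (K : Set G)) (hc : c ∈ A)
    (hg : g ∈ K) (hgc : ¬ ∀ k ∈ K, g * k = k * g)
    (hq : QQ V d c) (hdy : d * (b * g * b⁻¹) = (b * g * b⁻¹) * d)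
    (hr : ∀ k ∈ K, k * (g⁻¹ * d) = (g⁻¹ * d) * k)
    (h1 : ∀ k ∈ K, k * (c * (b * g * b⁻¹) * c⁻¹) = (c * (b * g * b⁻¹) * c⁻¹) * k)
    (h2 : ∀ k ∈ K, (b * k * b⁻¹) * (c * (b * g * b⁻¹) * c⁻¹) = (c * (b * g * b⁻¹) * c⁻¹) * (b * k * b⁻¹)) :
    ∀ u ∈ K, ∀ v ∈ K, QQ V u (b * v * b⁻¹) := by
  have hyK := fun k hk => C.cc hb hbN k hk g hg
  set y := b * g * b⁻¹ with hy
  set z := c * y * c⁻¹ with hz
  -- w = y * z⁻¹
  have hw : QQ V d (y * z⁻¹) := by
    have e1 : QQ V (y * d * y⁻¹) (y * c * y⁻¹) := hq.conj y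
    have e2 : y * d * y⁻¹ = d := by rw [← hdy]; group
    rw [e2] at e1
    have e3 : (y * c * y⁻¹) * c⁻¹ ∈ RR V d := (RR V d).mul_mem e1 ((RR V d).inv_mem hq)
    have e4 : (y * c * y⁻¹) * c⁻¹ = y * z⁻¹ := by rw [hz]; group
    rw [e4] at e3
    exact e3
  have hKw : ∀ h ∈ K, h * (y * z⁻¹) * h⁻¹ = y * z⁻¹ := by
    intro h hh
    have e1 := hyK h hh
    have e2 := h1 h hh
    have e3 : h * z⁻¹ = z⁻¹ * h := by
      rw [eq_inv_mul_iff_mul_eq, ← mul_assoc, ← e2]; group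
    calc h * (y * z⁻¹) * h⁻¹ = (h * y) * z⁻¹ * h⁻¹ := by group
      _ = y * (h * z⁻¹) * h⁻¹ := by rw [e1]; group
      _ = y * z⁻¹ := by rw [e3]; group
  have hall : ∀ u ∈ K, QQ V u (y * z⁻¹) := by
    have hL : K ⊓ LL V (y * z⁻¹) = K := by
      apply C.comm_normal_eq inf_le_left ?_ hg hgc
      · intro k hk
        refine mem_inf.2 ⟨K.mul_mem (K.mul_mem (K.mul_mem hk hg) (K.inv_mem hk)) (K.inv_mem hg), ?_⟩
        have e1 : QQ V (k * d * k⁻¹) (y * z⁻¹) := by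
          have := hw.conj k
          rwa [hKw k hk] at this
        have e2 : (k * d * k⁻¹) * d⁻¹ ∈ LL V (y * z⁻¹) :=
          (LL V _).mul_mem e1 ((LL V _).inv_mem hw)
        have e3 : k * g * k⁻¹ * g⁻¹ = (k * d * k⁻¹) * d⁻¹ := by
          have e4 := hr k hk
          calc k * g * k⁻¹ * g⁻¹ = k * g * ((g⁻¹ * d) * k) * k⁻¹ * k⁻¹ * (g⁻¹ * d)⁻¹ * g⁻¹ := by
                rw [← e4]
                have : k⁻¹ * (g⁻¹ * d)⁻¹ = (g⁻¹ * d)⁻¹ * k⁻¹ := by
                  rw [← mul_inv_rev, ← mul_inv_rev, e4]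
                calc k * g * k⁻¹ * g⁻¹ = k * g * k⁻¹ * (g⁻¹ * d) * (g⁻¹ * d)⁻¹ * g⁻¹ := by group
                  _ = k * g * (k⁻¹ * ((g⁻¹ * d) * k)) * k⁻¹ * (g⁻¹ * d)⁻¹ * g⁻¹ := by group
                  _ = k * g * (k⁻¹ * (k * (g⁻¹ * d))) * k⁻¹ * (g⁻¹ * d)⁻¹ * g⁻¹ := by rw [e4]
                  _ = k * g * ((g⁻¹ * d) * k) * k⁻¹ * k⁻¹ * (g⁻¹ * d)⁻¹ * g⁻¹ := by group
                  _ = _ := by rw [← e4]
            _ = k * d * (k⁻¹ * (g⁻¹ * d)⁻¹) * g⁻¹ := by group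
            _ = k * d * k⁻¹ * d⁻¹ := by group
        rw [e3]; exact e2
      · rintro k hk l ⟨hl, hl'⟩
        refine mem_inf.2 ⟨K.mul_mem (K.mul_mem hk hl) (K.inv_mem hk), ?_⟩
        have e1 : QQ V (k * l * k⁻¹) (k * (y * z⁻¹) * k⁻¹) := QQ.conj hl' k
        rw [hKw k hk] at e1
        exact e1
    intro u hu
    rw [← hL] at hu
    exact hu.2
  -- second step
  intro u hu v hv
  let L : Subgroup G :=
    { carrier := {v | v ∈ K ∧ ∀ u ∈ K, QQ V u (b * v * b⁻¹)}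
      one_mem' := ⟨K.one_mem, fun u _ => by
        have : b * 1 * b⁻¹ = 1 := by group
        rw [this]; exact (RR V u).one_mem⟩
      mul_mem' := by
        rintro x y ⟨hx, hx'⟩ ⟨hy, hy'⟩
        refine ⟨K.mul_mem hx hy, fun u hu => ?_⟩
        have : b * (x * y) * b⁻¹ = (b * x * b⁻¹) * (b * y * b⁻¹) := by group
        rw [this]; exact (RR V u).mul_mem (hx' u hu) (hy' u hu)
      inv_mem' := by
        rintro x ⟨hx, hx'⟩
        refine ⟨K.inv_mem hx, fun u hu => ?_⟩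
        have : b * x⁻¹ * b⁻¹ = (b * x * b⁻¹)⁻¹ := by group
        rw [this]; exact (RR V u).inv_mem (hx' u hu) }
  have hfix : ∀ k ∈ K, ∀ u ∈ K, (b * k * b⁻¹) * u * (b * k * b⁻¹)⁻¹ = u := by
    intro k hk u hu
    rw [← C.cc hb hbN u hu k hk]; group
  have hL : L = K := by
    apply C.comm_normal_eq (fun x (hx : x ∈ L) => hx.1) ?_ hg hgc
    · intro k hk
      refine ⟨K.mul_mem (K.mul_mem (K.mul_mem hk hg) (K.inv_mem hk)) (K.inv_mem hg), ?_⟩
      intro u hu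
      have e1 := (hall u hu).conj (b * k * b⁻¹)
      rw [hfix k hk u hu] at e1
      have e2 : ((b * k * b⁻¹) * (y * z⁻¹) * (b * k * b⁻¹)⁻¹) * (y * z⁻¹)⁻¹ ∈ RR V u :=
        (RR V u).mul_mem e1 ((RR V u).inv_mem (hall u hu))
      have e3 : b * (k * g * k⁻¹ * g⁻¹) * b⁻¹ =
          ((b * k * b⁻¹) * (y * z⁻¹) * (b * k * b⁻¹)⁻¹) * (y * z⁻¹)⁻¹ := by
        have e4 := h2 k hk
        have e5 : z⁻¹ * (b * k * b⁻¹)⁻¹ = (b * k * b⁻¹)⁻¹ * z⁻¹ := by
          rw [← mul_inv_rev, ← mul_inv_rev, e4]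
        calc b * (k * g * k⁻¹ * g⁻¹) * b⁻¹ = (b * k * b⁻¹) * y * ((b * k * b⁻¹)⁻¹ * z⁻¹) * z * y⁻¹ := by
              rw [hy]; group
          _ = (b * k * b⁻¹) * y * (z⁻¹ * (b * k * b⁻¹)⁻¹) * z * y⁻¹ := by rw [e5]
          _ = _ := by group
      show QQ V u (b * (k * g * k⁻¹ * g⁻¹) * b⁻¹)
      rw [e3]; exact e2
    · rintro k hk l ⟨hl, hl'⟩
      refine ⟨K.mul_mem (K.mul_mem hk hl) (K.inv_mem hk), fun u hu => ?_⟩
      have e1 := (hl' u hu).conj (b * k * b⁻¹)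
      rw [hfix k hk u hu] at e1
      have e2 : b * (k * l * k⁻¹) * b⁻¹ = (b * k * b⁻¹) * (b * l * b⁻¹) * (b * k * b⁻¹)⁻¹ := by group
      rw [e2]; exact e1
  rw [← hL] at hv
  exact hv.2 u hu

/-- final contradiction for `|A/N| > 2` -/
theorem Core.F4c {b : G} (hb : b ∈ A) (hbN : b ∉ normalizer (K : Set G))
    (h : ∀ c ∈ A, c ∉ normalizer (K : Set G) → ∀ u ∈ K, ∀ v ∈ K, QQ V u (c * v * c⁻¹)) : False := by
  apply C.nontriv (V := V)
  apply stab C.perf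
  intro k hk
  -- u' = k v - v is fixed by K
  have key : ∀ v : V, ∀ x ∈ K, x • (k • v - v) = k • v - v := by
    intro v
    apply stab_vec C.perf
    intro x hx k' hk'
    set u := k • v - v with hu
    have hd : PP b x p • u = x • u := by
      have hrest : ∀ n, n + 1 ≤ p → x⁻¹ * PP b x (n + 1) ∈ RR V k := by
        intro n
        induction n with
        | zero => intro _; simp [PP, (RR V k).one_mem]
        | succ n ih =>
          intro hn
          rw [PP, ← mul_assoc]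
          exact (RR V k).mul_mem (ih (by omega))
            (h _ (A.pow_mem hb _) (C.pow_notMem hb hbN (i := n + 1) (by omega) (by omega)) k hk x hx)
      obtain ⟨m, hm⟩ : ∃ m, p = m + 1 := ⟨p - 1, by have := hp.out.pos; omega⟩
      have h1 := hrest m (by omega)
      rw [← hm] at h1
      have h2 : (x⁻¹ * PP b x p) • u = u := h1 v
      have h3 : PP b x p = x * (x⁻¹ * PP b x p) := by group
      rw [h3, mul_smul, h2]
    have hs : QQ V b (PP b x p) := (C.star hb hbN x hx).symm (C.PP_comm_b hb hbN hx).symm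
    have h1 := hs u
    rw [smul_sub, ← mul_smul, ← C.PP_comm_b hb hbN hx, mul_smul, hd] at h1
    have h2 : b • (x • u - u) = x • u - u := by
      rw [smul_sub]
      have h3 : b • x • u = x • u + (b • u - u) := by rw [← h1]; abel
      rw [h3]; abel
    have h3 : b⁻¹ • (x • u - u) = x • u - u := by rw [inv_smul_eq_iff]; exact h2.symm
    have h4 := h b hb hbN x hx k' hk' u
    rw [mul_smul, mul_smul, h3] at h4
    rw [← h3]
    rw [eq_inv_smul_iff]
    rw [h3]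
    exact h4
  exact fun x hx v => key v x hx

theorem Core.p_eq_two {b : G} (hb : b ∈ A) (hbN : b ∉ normalizer (K : Set G)) : p = 2 := by
  by_contra hp2
  have hp3 : 2 < p := lt_of_le_of_ne hp.out.two_le (Ne.symm hp2)
  obtain ⟨g, hg, hgc⟩ := C.exists_noncentral
  apply C.F4c hb hbN
  intro c hc hcN
  have hd := C.PP_comm_b hc hcN hg
  have hd2 := C.PP_comm_self hc hcN hg
  refine C.F4 hc hcN hc hg hgc (d := PP c g p) (C.star hc hcN g hg) ?_ ?_ ?_ ?_
  · have e1 : PP c g p * c⁻¹ = c⁻¹ * PP c g p := by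
      rw [eq_inv_mul_iff_mul_eq, ← mul_assoc, hd]; group
    calc PP c g p * (c * g * c⁻¹) = (PP c g p * c) * g * c⁻¹ := by group
      _ = c * (PP c g p * g) * c⁻¹ := by rw [← hd]; group
      _ = c * g * (PP c g p * c⁻¹) := by rw [← hd2]; group
      _ = _ := by rw [e1]; group
  · obtain ⟨m, hm⟩ : ∃ m, p = m + 1 := ⟨p - 1, by have := hp.out.pos; omega⟩
    have h1 := C.PP_rest hc hcN hg (n := m) (by omega)
    rwa [← hm] at h1
  · intro k hk
    have h1 := C.comm_pow hc hcN (i := 2) (by norm_num) hp3 k hk g hg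
    have h2 : c ^ 2 * g * (c ^ 2)⁻¹ = c * (c * g * c⁻¹) * c⁻¹ := by rw [sq]; group
    rwa [h2] at h1
  · intro k hk
    have h1 := C.comm_pow2 hc hcN (i := 1) (j := 2) (by norm_num) hp3 k hk g hg
    have h2 : c ^ 2 * g * (c ^ 2)⁻¹ = c * (c * g * c⁻¹) * c⁻¹ := by rw [sq]; group
    rwa [h2, pow_one] at h1

theorem Core.two_cosets (hp2 : p = 2) {b : G} (hb : b ∈ A) (hbN : b ∉ normalizer (K : Set G)) :
    ∃ t ∈ A, t ∉ normalizer (K : Set G) ∧
      ∀ a ∈ A, a ∈ normalizer (K : Set G) ∨ a * t ∈ normalizer (K : Set G) := by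
  subst hp2
  by_contra hno
  push Not at hno
  obtain ⟨g, hg, hgc⟩ := C.exists_noncentral
  apply C.F4c hb hbN
  intro b hb hbN
  obtain ⟨c, hc, hcN, hcb⟩ := hno b hb hbN
  have hcb' : b * c ∉ normalizer (K : Set G) := by rwa [C.comm b hb c hc]
  have hcc : c⁻¹ = c := by
    have := C.exp c hc
    rw [sq] at this
    exact inv_eq_of_mul_eq_one_left this
  have hPP : PP c g 2 = g * (c * g * c⁻¹) := by simp [PP]
  refine C.F4 hb hbN hc hg hgc (d := PP c g 2) (C.star hc hcN g hg) ?_ ?_ ?_ ?_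
  · have e1 := C.cc hb hbN g hg g hg
    have e2 : (c * g * c⁻¹) * (b * g * b⁻¹) = (b * g * b⁻¹) * (c * g * c⁻¹) := by
      have e3 := C.cc (A.mul_mem hc hb) hcb g hg g hg
      calc (c * g * c⁻¹) * (b * g * b⁻¹) = c * (g * (c⁻¹ * b * g * (c⁻¹ * b)⁻¹)) * c⁻¹ := by group
        _ = c * (g * (c * b * g * (c * b)⁻¹)) * c⁻¹ := by rw [hcc]
        _ = c * ((c * b * g * (c * b)⁻¹) * g) * c⁻¹ := by rw [e3]
        _ = c * ((c⁻¹ * b * g * (c⁻¹ * b)⁻¹) * g) * c⁻¹ := by rw [hcc]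
        _ = _ := by group
    rw [hPP]
    calc g * (c * g * c⁻¹) * (b * g * b⁻¹) = g * ((c * g * c⁻¹) * (b * g * b⁻¹)) := by group
      _ = (g * (b * g * b⁻¹)) * (c * g * c⁻¹) := by rw [e2]; group
      _ = _ := by rw [e1]; group
  · intro k hk
    have e1 : g⁻¹ * PP c g 2 = c * g * c⁻¹ := by rw [hPP]; group
    rw [e1]
    exact C.cc hc hcN k hk g hg
  · intro k hk
    have e1 := C.cc (A.mul_mem hc hb) hcb k hk g hg
    have e2 : c * b * g * (c * b)⁻¹ = c * (b * g * b⁻¹) * c⁻¹ := by group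
    rwa [e2] at e1
  · intro k hk
    have e1 := C.cc hc hcN k hk g hg
    have e2 : c * (b * g * b⁻¹) * c⁻¹ = b * (c * g * c⁻¹) * b⁻¹ := by
      calc c * (b * g * b⁻¹) * c⁻¹ = (c * b) * g * (c * b)⁻¹ := by group
        _ = (b * c) * g * (b * c)⁻¹ := by rw [C.comm c hc b hb]
        _ = _ := by group
    rw [e2]
    calc (b * k * b⁻¹) * (b * (c * g * c⁻¹) * b⁻¹) = b * (k * (c * g * c⁻¹)) * b⁻¹ := by group
      _ = b * ((c * g * c⁻¹) * k) * b⁻¹ := by rw [e1]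
      _ = _ := by group

end CfsgLib.LE11PGV
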