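import Mathlib
import Cfsg.Agent.EqBase
import Cfsg.Agent.LibLE11PGV6
import Cfsg.Agent.LibLE11PGV4

set_option autoImplicit false
set_option linter.all false

/-! The enveloping ring in the final configuration of the P(G,V) theorem (helper11). -/

namespace CfsgLib.LE11PGV

open Subgroup Cfsg
open scoped commutatorElement

variable {G : Type*} [Group G] {X : Type*} [AddCommGroup X] [DistribMulAction G X]

/-- the enveloping ring -/
def RK (X : Type*) [AddCommGroup X] [DistribMulAction G X] (K : Subgroup G) : Subring (AddMonoid.End X) :=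
  Subring.closure (DistribMulAction.toAddMonoidEnd G X '' (K : Set G))

theorem ph_mem {K : Subgroup G} {k : G} (hk : k ∈ K) : DistribMulAction.toAddMonoidEnd G X k ∈ RK X K :=
  Subring.subset_closure ⟨k, hk, rfl⟩

theorem RK_ind {K : Subgroup G} {P : AddMonoid.End X → Prop} (h0 : P 0) (hadd : ∀ a b, P a → P b → P (a + b))
    (hneg : ∀ a, P a → P (-a)) (hk : ∀ k ∈ K, P (DistribMulAction.toAddMonoidEnd G X k)) :
    ∀ r ∈ RK X K, P r := by
  intro r hr
  rw [RK, Subring.mem_closure_iff] at hr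
  have h1 : Submonoid.closure (DistribMulAction.toAddMonoidEnd G X '' (K : Set G)) ≤
      K.toSubmonoid.map (DistribMulAction.toAddMonoidEnd G X) := by
    rw [Submonoid.closure_le]
    rintro _ ⟨k, hk, rfl⟩
    exact ⟨k, hk, rfl⟩
  refine AddSubgroup.closure_induction (p := fun x _ => P x) ?_ h0 (fun a b _ _ => hadd a b) (fun a _ => hneg a) hr
  intro x hx
  obtain ⟨k, hk', rfl⟩ := h1 hx
  exact hk k hk'

theorem e_add (a b : AddMonoid.End X) (x : X) : (a + b) x = a x + b x := rfl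
theorem e_neg (a : AddMonoid.End X) (x : X) : (-a) x = -(a x) := rfl
theorem e_zero (x : X) : (0 : AddMonoid.End X) x = 0 := rfl
theorem e_mul (a b : AddMonoid.End X) (x : X) : (a * b) x = a (b x) := rfl
theorem e_one (x : X) : (1 : AddMonoid.End X) x = x := rfl

theorem ph_apply (g : G) (x : X) : DistribMulAction.toAddMonoidEnd G X g x = g • x := rfl

/-- final configuration -/
structure Fin2 (X : Type*) [AddCommGroup X] [DistribMulAction G X] (A K : Subgroup G) (t : G) : Prop where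
  hX : ∀ x : X, x + x = 0
  comm : ∀ a ∈ A, ∀ b ∈ A, a * b = b * a
  exp : ∀ a ∈ A, a * a = 1
  perf : ⁅K, K⁆ = K
  ht : t ∈ A
  cc : ∀ k ∈ K, ∀ l ∈ K, k * (t * l * t⁻¹) = (t * l * t⁻¹) * k
  cos : ∀ a ∈ A, a ∈ normalizer (K : Set G) ∨ a * t ∈ normalizer (K : Set G)
  gen : A ⊔ K = ⊤
  irr : ∀ Y : AddSubgroup X, (∀ g : G, ∀ y ∈ Y, g • y ∈ Y) → Y = ⊥ ∨ Y = ⊤
  nt : ¬ ∀ k ∈ K, ∀ x : X, k • x = x
  star : ∀ k ∈ K, QQ X (k * (t * k * t⁻¹)) t

variable {A K : Subgroup G} {t : G} (C : Fin2 X A K t)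
include C

theorem Fin2.tt : t * t = 1 := C.exp t C.ht

theorem Fin2.tinv : t⁻¹ = t := inv_eq_of_mul_eq_one_left C.tt

theorem Fin2.negx (x : X) : -x = x := neg_eq_of_add_eq_zero_left (C.hX x)

theorem Fin2.subx (x y : X) : x - y = x + y := by rw [sub_eq_add_neg, C.negx]

/-- k acts through commuting elements only trivially -/
theorem Fin2.notcomm : ∃ k ∈ K, ∃ l ∈ K, ∃ x : X, (k * l) • x ≠ (l * k) • x := by
  by_contra hno
  push Not at hno
  apply C.nt
  intro k hk x
  have h1 : ⁅K, K⁆ ≤ MulAction.stabilizer G x := by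
    rw [commutator_le]
    intro a ha b hb
    rw [MulAction.mem_stabilizer_iff, commutatorElement_def]
    have h2 : a * b * a⁻¹ * b⁻¹ = (a * b) * (b * a)⁻¹ := by group
    rw [h2, mul_smul, hno a ha b hb, smul_inv_smul]
  rw [C.perf] at h1
  exact h1 hk

theorem Fin2.tne : ∃ x : X, t • x - x ≠ 0 := by
  by_contra hno
  push Not at hno
  have ht : ∀ x : X, t • x = x := fun x => sub_eq_zero.1 (hno x)
  obtain ⟨k, hk, l, hl, x, hx⟩ := C.notcomm
  apply hx
  have h1 := C.cc k hk l hl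
  have h2 : ∀ y : X, (t * l * t⁻¹) • y = l • y := by
    intro y
    rw [C.tinv, mul_smul, mul_smul, ht, ht]
  calc (k * l) • x = k • l • x := mul_smul _ _ _
    _ = k • (t * l * t⁻¹) • x := by rw [h2]
    _ = (k * (t * l * t⁻¹)) • x := (mul_smul _ _ _).symm
    _ = ((t * l * t⁻¹) * k) • x := by rw [h1]
    _ = (t * l * t⁻¹) • k • x := mul_smul _ _ _
    _ = l • k • x := h2 _
    _ = (l * k) • x := (mul_smul _ _ _).symm

theorem Fin2.exists_y [Finite X] [Finite G] : ∃ x0 : X, t • x0 - x0 ≠ 0 ∧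
    ∀ n ∈ A ⊓ normalizer (K : Set G), n • (t • x0 - x0) = t • x0 - x0 := by
  let T : AddSubgroup X := (DistribSMul.toAddMonoidHom X t - AddMonoidHom.id X).range
  have hT : ∀ x, x ∈ T ↔ ∃ y : X, t • y - y = x := fun x => Iff.rfl
  have hst : ∀ b ∈ A ⊓ normalizer (K : Set G), ∀ x ∈ T, b • x ∈ T := by
    rintro b hb _ ⟨y, rfl⟩
    refine (hT _).2 ⟨b • y, ?_⟩
    change t • b • y - b • y = b • (t • y - y)
    rw [smul_sub, ← mul_smul, ← mul_smul, C.comm t C.ht b hb.1]
  have hP : IsPGroup 2 (A ⊓ normalizer (K : Set G) : Subgroup G) := fun a => ⟨1, by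
    rw [pow_one, pow_two]; exact Subtype.ext (C.exp a a.2.1)⟩
  have : Fact (Nat.Prime 2) := ⟨Nat.prime_two⟩
  obtain ⟨x, hx⟩ := C.tne
  obtain ⟨y, hy, hy0, hyB⟩ := exists_fixed_section (p := 2) (V := X) (fun v => by rw [two_nsmul]; exact C.hX v) hP
    (X := ⊥) (Y := T) (by intro b _ x hx; rw [AddSubgroup.mem_bot] at hx ⊢; rw [hx, smul_zero]) hst
    (by intro h; exact hx (AddSubgroup.mem_bot.1 (h ⟨x, rfl⟩)))
  obtain ⟨x0, hx0⟩ := (hT _).1 hy
  refine ⟨x0, ?_, ?_⟩
  · rw [hx0]; intro h; exact hy0 (AddSubgroup.mem_bot.2 h)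
  · intro n hn
    rw [hx0]
    exact sub_eq_zero.1 (AddSubgroup.mem_bot.1 (hyB n hn))

theorem Fin2.R1 {r s : AddMonoid.End X} (hr : r ∈ RK X K) (hs : s ∈ RK X K) (x : X) :
    t • r (t • s x) = s (t • r (t • x)) := by
  revert x
  refine RK_ind (P := fun r => ∀ x : X, t • r (t • s x) = s (t • r (t • x))) ?_ ?_ ?_ ?_ r hr
  · intro x; simp
  · intro a b ha hb x
    rw [e_add, e_add, smul_add, smul_add, ha, hb, map_add]
  · intro a ha x
    rw [e_neg, e_neg, smul_neg, smul_neg, ha, map_neg]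
  · intro k hk
    refine RK_ind (P := fun s => ∀ x : X, t • (DistribMulAction.toAddMonoidEnd G X k) (t • s x) =
      s (t • (DistribMulAction.toAddMonoidEnd G X k) (t • x))) ?_ ?_ ?_ ?_ s hs
    · intro x; rw [e_zero, e_zero, smul_zero, map_zero, smul_zero]
    · intro a b ha hb x
      rw [e_add, smul_add, map_add, smul_add, ha, hb, e_add]
    · intro a ha x
      rw [e_neg, smul_neg, map_neg, smul_neg, ha, e_neg]
    · intro l hl x
      simp only [ph_apply]
      have h1 := C.cc l hl k hk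
      rw [C.tinv] at h1
      have h2 := congrArg (fun g : G => g • x) h1
      simp only [mul_smul] at h2
      exact h2.symm

theorem Fin2.R3 {n : G} (hn : n ∈ A ⊓ normalizer (K : Set G)) {r : AddMonoid.End X} (hr : r ∈ RK X K) :
    DistribMulAction.toAddMonoidEnd G X n * r * DistribMulAction.toAddMonoidEnd G X n⁻¹ ∈ RK X K := by
  refine RK_ind (P := fun r => DistribMulAction.toAddMonoidEnd G X n * r *
    DistribMulAction.toAddMonoidEnd G X n⁻¹ ∈ RK X K) ?_ ?_ ?_ ?_ r hr
  · rw [mul_zero, zero_mul]; exact zero_mem _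
  · intro a b ha hb
    rw [mul_add, add_mul]; exact add_mem ha hb
  · intro a ha
    rw [mul_neg, neg_mul]; exact neg_mem ha
  · intro k hk
    rw [← map_mul, ← map_mul]
    exact ph_mem ((mem_normalizer_iff.1 hn.2 k).1 hk)

theorem Fin2.tfix (v : X) : t • (t • v - v) = t • v - v := by
  rw [smul_sub, ← mul_smul, C.tt, one_smul, C.subx, C.subx, add_comm]

theorem Fin2.hk3 {k : G} (hk : k ∈ K) (v : X) : t • k • (t • v - v) = k⁻¹ • (t • v - v) := by
  have hc : k * (t * k * t⁻¹) * t = t * (k * (t * k * t⁻¹)) := by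
    have h1 := C.cc k hk k hk
    calc k * (t * k * t⁻¹) * t = k * t * k * (t⁻¹ * t) := by group
      _ = k * t * k := by rw [inv_mul_cancel, mul_one]
      _ = (t * t) * (t * (t * t)⁻¹ * t) * k⁻¹⁻¹ * 1 * k⁻¹ * (k * t * k) := by rw [C.tt]; simp [C.tt]
      _ = t * (k * (t * k * t⁻¹)) := by
        rw [h1, C.tinv, C.tt]
        simp only [one_mul, inv_one, mul_one, inv_inv]
        calc t * t * k * k⁻¹ * (k * t * k) = (t * t) * (k * t * k) := by group
          _ = k * t * k := by rw [C.tt, one_mul]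
          _ = (t * t) * k * t * k := by rw [C.tt, one_mul]
          _ = t * (t * k * t * k) := by group
  have h2 := (C.star k hk).symm hc v
  rw [mul_smul, mul_smul, mul_smul, C.tinv, C.tfix] at h2
  rw [eq_inv_smul_iff]
  exact h2

omit C in
/-- the involution -/
def sg (K : Subgroup G) (t : G) (e : RK X K ≃+ X) : RK X K →+ RK X K :=
  e.symm.toAddMonoidHom.comp ((DistribSMul.toAddMonoidHom X t).comp e.toAddMonoidHom)

omit C in
theorem e_sg {e : RK X K ≃+ X} (r : RK X K) : e (sg K t e r) = t • e r := by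
  change e (e.symm _) = _
  rw [AddEquiv.apply_symm_apply]; rfl

omit C in
theorem sg_apply {e : RK X K ≃+ X} {y : X} (he : ∀ r : RK X K, e r = r.1 y) (r : RK X K) :
    (sg K t e r).1 y = t • r.1 y := by
  rw [← he, e_sg, he]

omit C in
theorem e_ext {e : RK X K ≃+ X} {y : X} (he : ∀ r : RK X K, e r = r.1 y) {r s : RK X K} (h : r.1 y = s.1 y) : r = s := by
  apply e.injective
  rw [he, he, h]

theorem Fin2.rdata {e : RK X K ≃+ X} {y : X} (he : ∀ r : RK X K, e r = r.1 y) {x0 : X} (hy : y = t • x0 - x0) :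
    RData (sg K t e) := by
  have hty : t • y = y := by rw [hy]; exact C.tfix x0
  have hs := fun r => sg_apply (t := t) he r
  have hinv : ∀ r, sg K t e (sg K t e r) = r := by
    intro r
    apply e_ext he
    rw [hs, hs, ← mul_smul, C.tt, one_smul]
  have hmul : ∀ r s, sg K t e (r * s) = sg K t e s * sg K t e r := by
    intro r s
    apply e_ext he
    rw [hs]
    change t • r.1 (s.1 y) = (sg K t e s).1 ((sg K t e r).1 y)
    rw [hs]
    have h1 := C.R1 r.2 (sg K t e s).2 y
    rw [hs, hty, ← mul_smul, C.tt, one_smul] at h1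
    exact h1
  have htwo : ∀ r : RK X K, r + r = 0 := by
    intro r
    apply e_ext he
    exact C.hX _
  have htr : ∀ r s, (r + sg K t e r) * s = s * (r + sg K t e r) := by
    intro r s
    apply e_ext he
    -- work in End
    have hτy : (r + sg K t e r).1 y = t • (r.1 y) - r.1 y := by
      change r.1 y + (sg K t e r).1 y = _
      rw [hs, C.subx, add_comm]
    have hτ := (r + sg K t e r).2
    generalize r + sg K t e r = τ at hτy hτ ⊢
    have key : ∀ k ∈ K, τ.1 (k • y) = k • τ.1 y := by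
      intro k hk
      have h1 := C.hk3 (K.inv_mem hk) (r.1 y)
      rw [inv_inv, ← hτy] at h1
      have h2 := C.hk3 (K.inv_mem hk) x0
      rw [inv_inv, ← hy] at h2
      have h3 := C.R1 (ph_mem (X := X) (K.inv_mem hk)) hτ y
      rw [ph_apply, ph_apply, hty, h2] at h3
      have h4 : t • τ.1 y = τ.1 y := by rw [hτy]; exact C.tfix _
      rw [h4, h1] at h3
      exact h3.symm
    change τ.1 (s.1 y) = s.1 (τ.1 y)
    refine RK_ind (P := fun s => τ.1 (s y) = s (τ.1 y)) ?_ ?_ ?_ ?_ s.1 s.2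
    · rw [e_zero, e_zero, map_zero]
    · intro a b ha hb
      rw [e_add, e_add, map_add, ha, hb]
    · intro a ha
      rw [e_neg, e_neg, map_neg, ha]
    · intro k hk
      exact key k hk
  refine ⟨htwo, hinv, hmul, htr, ?_⟩
  intro r
  have key : ∃ h : r.1 ∈ RK X K, ∀ s, (⟨r.1, h⟩ * sg K t e ⟨r.1, h⟩) * s = s * (⟨r.1, h⟩ * sg K t e ⟨r.1, h⟩) := by
    refine RK_ind (P := fun r => ∃ h : r ∈ RK X K, ∀ s, (⟨r, h⟩ * sg K t e ⟨r, h⟩) * s =
      s * (⟨r, h⟩ * sg K t e ⟨r, h⟩)) ?_ ?_ ?_ ?_ r.1 r.2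
    · refine ⟨zero_mem _, fun s => ?_⟩
      have h0 : (⟨0, zero_mem _⟩ : RK X K) = 0 := rfl
      rw [h0, zero_mul, zero_mul, mul_zero]
    · rintro a b ⟨ha, hca⟩ ⟨hb, hcb⟩
      refine ⟨add_mem ha hb, fun s => ?_⟩
      have h0 : (⟨a + b, add_mem ha hb⟩ : RK X K) = ⟨a, ha⟩ + ⟨b, hb⟩ := rfl
      rw [h0]
      have hca' := hca s
      have hcb' := hcb s
      generalize (⟨a, ha⟩ : RK X K) = u at hca' ⊢
      generalize (⟨b, hb⟩ : RK X K) = v at hcb' ⊢
      have h1 : (u + v) * sg K t e (u + v) = u * sg K t e u + v * sg K t e v +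
          (u * sg K t e v + sg K t e (u * sg K t e v)) := by
        rw [map_add, hmul, hinv]
        noncomm_ring
      rw [h1, add_mul, htr, add_mul, hca', hcb']
      noncomm_ring
    · rintro a ⟨ha, hca⟩
      refine ⟨neg_mem ha, fun s => ?_⟩
      have h0 : (⟨-a, neg_mem ha⟩ : RK X K) = -⟨a, ha⟩ := rfl
      rw [h0, map_neg, neg_mul_neg, hca]
    · intro k hk
      refine ⟨ph_mem hk, fun s => ?_⟩
      have h1 : (⟨_, ph_mem hk⟩ : RK X K) * sg K t e ⟨_, ph_mem hk⟩ = 1 := by
        apply e_ext he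
        change k • (sg K t e ⟨_, ph_mem hk⟩).1 y = y
        rw [hs]
        have h2 := C.hk3 hk x0
        rw [← hy] at h2
        change k • t • k • y = y
        rw [h2, smul_inv_smul]
      rw [h1, one_mul, mul_one]
  obtain ⟨_, h⟩ := key
  exact h

theorem Fin2.invSimple {e : RK X K ≃+ X} {y : X} (he : ∀ r : RK X K, e r = r.1 y)
    {ψ : (A ⊓ normalizer (K : Set G) : Subgroup G) →* RingAut (RK X K)}
    (hψ : ∀ n r, (ψ n r).1 y = (n : G) • r.1 y) : InvSimple (sg K t e) ψ := by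
  intro I hI hσ hψI
  have hI' : ∀ g : G, ∀ x ∈ I.map e.toAddMonoidHom, g • x ∈ I.map e.toAddMonoidHom := by
    apply stable_gen C.gen
    · intro a ha x hx
      have hN : ∀ a ∈ A ⊓ normalizer (K : Set G), ∀ x ∈ I.map e.toAddMonoidHom, a • x ∈ I.map e.toAddMonoidHom := by
        rintro a ha _ ⟨r, hr, rfl⟩
        refine ⟨ψ ⟨a, ha⟩ r, hψI _ _ hr, ?_⟩
        change e _ = a • e r
        rw [he, he, hψ]
      rcases C.cos a ha with h1 | h1
      · exact hN a ⟨ha, h1⟩ x hx
      · have h2 : a • x = (a * t) • (t • x) := by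
          rw [← mul_smul, mul_assoc, C.tt, mul_one]
        rw [h2]
        apply hN _ ⟨A.mul_mem ha C.ht, h1⟩
        obtain ⟨r, hr, rfl⟩ := hx
        refine ⟨sg K t e r, hσ _ hr, ?_⟩
        exact e_sg r
    · rintro k hk _ ⟨r, hr, rfl⟩
      refine ⟨⟨_, ph_mem hk⟩ * r, (hI _ _ hr).1, ?_⟩
      change e _ = k • e r
      rw [he, he]; rfl
  rcases C.irr _ hI' with h | h
  · left
    rw [eq_bot_iff]
    intro r hr
    have h1 : e r ∈ I.map e.toAddMonoidHom := ⟨r, hr, rfl⟩
    rw [h, AddSubgroup.mem_bot] at h1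
    rw [AddSubgroup.mem_bot]
    exact e.injective (by rw [h1, map_zero])
  · right
    have h1 : e 1 ∈ I.map e.toAddMonoidHom := by rw [h]; trivial
    obtain ⟨r, hr, hr'⟩ := h1
    have h2 : r = 1 := e.injective hr'
    rwa [h2] at hr

/-- the action of the normalizer part on the ring -/
def Fin2.ps : (A ⊓ normalizer (K : Set G) : Subgroup G) →* RingAut (RK X K) where
  toFun n :=
    { toFun := fun r => ⟨DistribMulAction.toAddMonoidEnd G X n * r.1 * DistribMulAction.toAddMonoidEnd G X (n : G)⁻¹,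
        C.R3 n.2 r.2⟩
      invFun := fun r => ⟨DistribMulAction.toAddMonoidEnd G X (n : G)⁻¹ * r.1 * DistribMulAction.toAddMonoidEnd G X n, by
        have := C.R3 (inv_mem n.2) r.2
        rwa [inv_inv] at this⟩
      left_inv := by
        intro r
        apply Subtype.ext
        apply AddMonoidHom.ext
        intro x
        change (n : G)⁻¹ • (n : G) • r.1 ((n : G)⁻¹ • (n : G) • x) = r.1 x
        rw [inv_smul_smul, inv_smul_smul]
      right_inv := by
        intro r
        apply Subtype.ext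
        apply AddMonoidHom.ext
        intro x
        change (n : G) • (n : G)⁻¹ • r.1 ((n : G) • (n : G)⁻¹ • x) = r.1 x
        rw [smul_inv_smul, smul_inv_smul]
      map_mul' := by
        intro r s
        apply Subtype.ext
        apply AddMonoidHom.ext
        intro x
        change (n : G) • r.1 (s.1 ((n : G)⁻¹ • x)) = (n : G) • r.1 ((n : G)⁻¹ • (n : G) • s.1 ((n : G)⁻¹ • x))
        rw [inv_smul_smul]
      map_add' := by
        intro r s
        apply Subtype.ext
        apply AddMonoidHom.ext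
        intro x
        change (n : G) • (r.1 ((n : G)⁻¹ • x) + s.1 ((n : G)⁻¹ • x)) =
          (n : G) • r.1 ((n : G)⁻¹ • x) + (n : G) • s.1 ((n : G)⁻¹ • x)
        rw [smul_add] }
  map_one' := by
    apply RingEquiv.ext
    intro r
    apply Subtype.ext
    apply AddMonoidHom.ext
    intro x
    change (1 : G) • r.1 ((1 : G)⁻¹ • x) = r.1 x
    rw [inv_one, one_smul, one_smul]
  map_mul' := by
    intro m n
    apply RingEquiv.ext
    intro r
    apply Subtype.ext
    apply AddMonoidHom.ext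
    intro x
    change ((m : G) * (n : G)) • r.1 (((m : G) * (n : G))⁻¹ • x) = (m : G) • (n : G) • r.1 ((n : G)⁻¹ • (m : G)⁻¹ • x)
    rw [mul_inv_rev, mul_smul, mul_smul]

theorem Fin2.ps_apply (n : (A ⊓ normalizer (K : Set G) : Subgroup G)) (r : RK X K) (x : X) :
    (C.ps n r).1 x = (n : G) • r.1 ((n : G)⁻¹ • x) := rfl

end CfsgLib.LE11PGV
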