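import Mathlib
import Cfsg.Agent.EqBase
import Cfsg.Agent.LibLE11PGV7
import Cfsg.Agent.S0144

set_option autoImplicit false
set_option linter.all false

/-! The final contradiction in the P(G,V) theorem (helper11). -/

namespace CfsgLib.LE11PGV

open Subgroup Cfsg
open scoped commutatorElement

theorem solv15 {H : Type*} [Group H] [Finite H] (h : Nat.card H ≤ 15) : Group.IsSolvable H := by
  have hpos : 0 < Nat.card H := Nat.card_pos
  obtain ⟨p, q, a, b, hp, hq, h⟩ : ∃ p q a b : ℕ, p.Prime ∧ q.Prime ∧ Nat.card H = p ^ a * q ^ b := by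
    generalize Nat.card H = n at *
    interval_cases n
    · exact ⟨2, 3, 0, 0, by norm_num, by norm_num, by norm_num⟩
    · exact ⟨2, 3, 1, 0, by norm_num, by norm_num, by norm_num⟩
    · exact ⟨2, 3, 0, 1, by norm_num, by norm_num, by norm_num⟩
    · exact ⟨2, 3, 2, 0, by norm_num, by norm_num, by norm_num⟩
    · exact ⟨2, 5, 0, 1, by norm_num, by norm_num, by norm_num⟩
    · exact ⟨2, 3, 1, 1, by norm_num, by norm_num, by norm_num⟩
    · exact ⟨2, 7, 0, 1, by norm_num, by norm_num, by norm_num⟩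
    · exact ⟨2, 3, 3, 0, by norm_num, by norm_num, by norm_num⟩
    · exact ⟨2, 3, 0, 2, by norm_num, by norm_num, by norm_num⟩
    · exact ⟨2, 5, 1, 1, by norm_num, by norm_num, by norm_num⟩
    · exact ⟨2, 11, 0, 1, by norm_num, by norm_num, by norm_num⟩
    · exact ⟨2, 3, 2, 1, by norm_num, by norm_num, by norm_num⟩
    · exact ⟨2, 13, 0, 1, by norm_num, by norm_num, by norm_num⟩
    · exact ⟨2, 7, 1, 1, by norm_num, by norm_num, by norm_num⟩
    · exact ⟨3, 5, 1, 1, by norm_num, by norm_num, by norm_num⟩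
  exact Cfsg.Agent.S0144.result p q a b hp hq h

variable {G : Type*} [Group G] {X : Type*} [AddCommGroup X] [DistribMulAction G X]

/-- `K → R` -/
def phK (X : Type*) [AddCommGroup X] [DistribMulAction G X] (K : Subgroup G) : K →* RK X K where
  toFun k := ⟨DistribMulAction.toAddMonoidEnd G X k, ph_mem k.2⟩
  map_one' := Subtype.ext (map_one _)
  map_mul' a b := Subtype.ext (map_mul _ _ _)

theorem phK_apply {K : Subgroup G} (k : K) (x : X) : (phK X K k).1 x = (k : G) • x := rfl

variable {A K : Subgroup G} {t : G} (C : Fin2 X A K t)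
include C

/-- a solvable image is impossible -/
theorem Fin2.not_solvable {M : Type*} [Group M] (f : K →* M)
    (hf : ∀ k : K, f k = 1 → ∀ x : X, (k : G) • x = x) : ¬ Group.IsSolvable f.range := by
  intro hs
  have h1 : commutator K = ⊤ := by
    have h2 : (commutator K).map K.subtype = (⊤ : Subgroup K).map K.subtype := by
      rw [map_subtype_commutator, C.perf, ← MonoidHom.range_eq_map, range_subtype]
    exact (map_injective K.subtype_injective) h2
  have h3 : ⁅(⊤ : Subgroup f.range), (⊤ : Subgroup f.range)⁆ = ⊤ := by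
    have h4 : (⊤ : Subgroup f.range) = (⊤ : Subgroup K).map f.rangeRestrict := by
      rw [← MonoidHom.range_eq_map, MonoidHom.range_eq_top.2 f.rangeRestrict_surjective]
    rw [h4, ← map_commutator]
    congr 1
  by_cases hbot : (⊤ : Subgroup f.range) = ⊥
  · apply C.nt
    intro k hk x
    have h5 : (⟨f ⟨k, hk⟩, ⟨⟨k, hk⟩, rfl⟩⟩ : f.range) ∈ (⊤ : Subgroup f.range) := mem_top _
    rw [hbot, mem_bot] at h5
    exact hf ⟨k, hk⟩ (congrArg Subtype.val h5) x
  · have h6 := Group.IsSolvable.commutator_lt_of_ne_bot hbot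
    rw [h3] at h6
    exact lt_irrefl _ h6

theorem Fin2.units_inj (k : K) (h : (phK X K).toHomUnits k = 1) (x : X) : (k : G) • x = x := by
  have h1 : phK X K k = 1 := by
    have h2 := congrArg Units.val h
    rwa [MonoidHom.coe_toHomUnits] at h2
  rw [← phK_apply, h1]; rfl

theorem Fin2.nontrivial : Nontrivial (RK X K) := by
  obtain ⟨x, hx⟩ := C.tne
  refine ⟨⟨0, 1, ?_⟩⟩
  intro h
  apply hx
  have h2 : ∀ z : X, z = 0 := by
    intro z
    have h3 := congrArg (fun r : RK X K => r.1 z) h
    exact h3.symm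
  exact h2 _

theorem Fin2.not_small [Finite X] (h : Nat.card (RK X K) ≤ 16) : False := by
  have hfin : Finite (RK X K) := by
    have : Finite (AddMonoid.End X) := by
      apply Finite.of_injective (fun f : AddMonoid.End X => (f : X → X))
      exact DFunLike.coe_injective
    infer_instance
  have hnt := C.nontrivial
  have h1 := natCard_units_lt (RK X K)
  have h2 : Nat.card ((phK X K).toHomUnits).range ≤ 15 :=
    (Nat.card_le_card_of_injective _ Subtype.val_injective).trans (by omega)
  exact C.not_solvable _ C.units_inj (solv15 h2)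

theorem Fin2.exists_e [Finite X] [Finite G] : ∃ (x0 : X) (e : RK X K ≃+ X), (t • x0 - x0 ≠ 0) ∧
    (∀ n ∈ A ⊓ normalizer (K : Set G), n • (t • x0 - x0) = t • x0 - x0) ∧
    ∀ r : RK X K, e r = r.1 (t • x0 - x0) := by
  obtain ⟨x0, hy0, hyN⟩ := C.exists_y
  obtain ⟨y, hy⟩ : ∃ y, y = t • x0 - x0 := ⟨_, rfl⟩
  rw [← hy] at hy0 hyN
  have hty : t • y = y := by rw [hy]; exact C.tfix x0
  let ev : RK X K →+ X :=
    { toFun := fun r => r.1 y
      map_zero' := rfl
      map_add' := fun a b => rfl }
  have hR2 : ∀ r ∈ RK X K, ∃ s ∈ RK X K, t • r y = s y := by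
    apply RK_ind
    · exact ⟨0, zero_mem _, by rw [e_zero, smul_zero]⟩
    · rintro a b ⟨a', ha', ha⟩ ⟨b', hb', hb⟩
      exact ⟨a' + b', add_mem ha' hb', by rw [e_add, smul_add, ha, hb, e_add]⟩
    · rintro a ⟨a', ha', ha⟩
      exact ⟨-a', neg_mem ha', by rw [e_neg, smul_neg, ha, e_neg]⟩
    · intro k hk
      refine ⟨_, ph_mem (K.inv_mem hk), ?_⟩
      rw [ph_apply, ph_apply, hy]
      exact C.hk3 hk x0
  have hst : ∀ g : G, ∀ x ∈ ev.range, g • x ∈ ev.range := by
    apply stable_gen C.gen
    · intro a ha x hx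
      have hN : ∀ a ∈ A ⊓ normalizer (K : Set G), ∀ x ∈ ev.range, a • x ∈ ev.range := by
        rintro a ha _ ⟨r, rfl⟩
        refine ⟨C.ps ⟨a, ha⟩ r, ?_⟩
        change (C.ps ⟨a, ha⟩ r).1 y = a • r.1 y
        rw [C.ps_apply]
        change a • r.1 (a⁻¹ • y) = _
        rw [hyN _ (inv_mem ha)]
      rcases C.cos a ha with h1 | h1
      · exact hN a ⟨ha, h1⟩ x hx
      · have h2 : a • x = (a * t) • (t • x) := by
          rw [← mul_smul, mul_assoc, C.tt, mul_one]
        rw [h2]
        apply hN _ ⟨A.mul_mem ha C.ht, h1⟩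
        obtain ⟨r, rfl⟩ := hx
        obtain ⟨s, hs, hs'⟩ := hR2 r.1 r.2
        exact ⟨⟨s, hs⟩, hs'.symm⟩
    · rintro k hk _ ⟨r, rfl⟩
      exact ⟨⟨_, ph_mem hk⟩ * r, rfl⟩
  have htop : ev.range = ⊤ := by
    rcases C.irr _ hst with h | h
    · exfalso
      apply hy0
      have h1 : y ∈ ev.range := ⟨1, rfl⟩
      rw [h, AddSubgroup.mem_bot] at h1
      exact h1
    · exact h
  have hsurj : Function.Surjective ev := AddMonoidHom.range_eq_top.1 htop
  have hinj : Function.Injective ev := by
    rw [injective_iff_map_eq_zero]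
    intro r hr
    apply Subtype.ext
    apply AddMonoidHom.ext
    intro w
    obtain ⟨s, hs⟩ := hsurj (t • w)
    have hs' : s.1 y = t • w := hs
    have hr' : r.1 y = 0 := hr
    -- w = t • s y
    have h1 : w = t • s.1 y := by rw [hs', ← mul_smul, C.tt, one_smul]
    have h2 := C.R1 s.2 r.2 y
    rw [hty, hr', smul_zero, map_zero, smul_zero] at h2
    rw [h1]
    exact h2.symm
  refine ⟨x0, AddEquiv.ofBijective ev ⟨hinj, hsurj⟩, ?_, ?_, ?_⟩
  · rw [← hy]; exact hy0
  · rw [← hy]; exact hyN
  · rw [← hy]; intro r; rfl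

theorem Fin2.card_A [Finite G] : Nat.card A ≤ 2 * Nat.card (A ⊓ normalizer (K : Set G) : Subgroup G) := by
  classical
  let f : A → (A ⊓ normalizer (K : Set G) : Subgroup G) ⊕ (A ⊓ normalizer (K : Set G) : Subgroup G) := fun a =>
    if h : (a : G) ∈ normalizer (K : Set G) then Sum.inl ⟨a, a.2, h⟩
    else Sum.inr ⟨a * t, A.mul_mem a.2 C.ht, (C.cos a a.2).resolve_left h⟩
  have hf : Function.Injective f := by
    intro a b hab
    simp only [f] at hab
    split_ifs at hab with h1 h2 h2
    · have := congrArg Subtype.val (Sum.inl_injective hab)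
      exact Subtype.ext this
    · have := congrArg Subtype.val (Sum.inr_injective hab)
      exact Subtype.ext (mul_right_cancel this)
  have h1 := Nat.card_le_card_of_injective f hf
  rw [Nat.card_sum] at h1
  omega

theorem Fin2.card_RK [Finite X] (e : RK X K ≃+ X) : Nat.card (RK X K) = Nat.card X :=
  Nat.card_congr e.toEquiv

theorem Fin2.final1 [Finite X] [Finite G] {n0 : G} (hn0 : n0 ∈ A ⊓ normalizer (K : Set G))
    (hn0x : ∃ x : X, n0 • x ≠ x) (hq : ∀ c ∈ A, QQ X n0 c)
    (hf : ∀ n ∈ A ⊓ normalizer (K : Set G), (∀ x : X, n • x = x) → n = 1)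
    (hc : Nat.card X ≤ Nat.card A * Nat.card (fx X A)) : False := by
  obtain ⟨x0, e, hy0, hyN, he⟩ := C.exists_e
  obtain ⟨y, hy⟩ : ∃ y, y = t • x0 - x0 := ⟨_, rfl⟩
  rw [← hy] at hy0 hyN he
  have D := C.rdata he hy
  have hs := fun r => sg_apply (t := t) he r
  have hψ : ∀ n r, (C.ps n r).1 y = (n : G) • r.1 y := by
    intro n r
    rw [C.ps_apply, hyN _ (inv_mem n.2)]
  have I := C.invSimple he hψ
  have hψe : ∀ n r, e (C.ps n r) = (n : G) • e r := by
    intro n r; rw [he, he, hψ]
  have hse : ∀ r, e (sg K t e r) = t • e r := fun r => e_sg r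
  have hfin : Finite (RK X K) := Finite.of_equiv X e.symm.toEquiv
  have hnt := C.nontrivial
  apply C.not_small
  obtain ⟨r1, hr1⟩ := e.surjective x0
  have hmemA : ∀ (v : X), v ∈ fx X A ↔ t • v = v ∧ ∀ n ∈ A ⊓ normalizer (K : Set G), n • v = v := by
    intro v
    constructor
    · intro h
      exact ⟨h t C.ht, fun n hn => h n hn.1⟩
    · rintro ⟨h1, h2⟩ a ha
      rcases C.cos a ha with h3 | h3
      · exact h2 a ⟨ha, h3⟩
      · have h4 : a • v = (a * t) • (t • v) := by rw [← mul_smul, mul_assoc, C.tt, mul_one]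
        rw [h4, h1]
        exact h2 _ ⟨A.mul_mem ha C.ht, h3⟩
  let S : AddSubgroup (RK X K) := (fx X A).comap e.toAddMonoidHom
  have hSc : Nat.card S = Nat.card (fx X A) := by
    refine Nat.card_congr (e.toEquiv.subtypeEquiv ?_)
    intro r
    rfl
  have hS : ∀ s, s ∈ S ↔ sg K t e s = s ∧ ∀ n, C.ps n s = s := by
    intro s
    have h1 : s ∈ S ↔ e s ∈ fx X A := Iff.rfl
    rw [h1, hmemA]
    constructor
    · rintro ⟨h2, h3⟩
      exact ⟨e.injective (by rw [hse, h2]), fun n => e.injective (by rw [hψe, h3 n n.2])⟩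
    · rintro ⟨h2, h3⟩
      exact ⟨by rw [← hse, h2], fun n hn => by rw [← hψe ⟨n, hn⟩, h3]⟩
  refine D.main (ψ := C.ps) (n0 := ⟨n0, hn0⟩) ?_ ?_ ?_ I (r1 := r1) ?_ ?_ ?_ ?_ S hS ?_
  · obtain ⟨k, hk, l, hl, x, hx⟩ := C.notcomm
    refine ⟨⟨_, ph_mem hk⟩, ⟨_, ph_mem hl⟩, ?_⟩
    intro h
    apply hx
    rw [mul_smul, mul_smul]
    exact congrArg (fun r : RK X K => r.1 x) h
  · rw [injective_iff_map_eq_one]
    intro n hn
    apply Subtype.ext
    apply hf n.1 n.2
    intro x
    obtain ⟨r, rfl⟩ := e.surjective x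
    rw [← hψe, hn]; rfl
  · intro n r
    apply e.injective
    rw [hψe, hse, hse, hψe, ← mul_smul, ← mul_smul, C.comm t C.ht n n.2.1]
  · apply e.injective
    rw [map_add, hse, hr1, he]
    change x0 + t • x0 = y
    rw [hy, C.subx, add_comm]
  · obtain ⟨x, hx⟩ := hn0x
    obtain ⟨r, rfl⟩ := e.surjective x
    refine ⟨r, fun h => hx ?_⟩
    rw [← h, hψe] at hx
    rw [← hψe ⟨n0, hn0⟩, h]
  · intro r
    apply e.injective
    rw [hse, map_add, hψe]
    have h1 := hq t C.ht (e r)
    rw [C.subx] at h1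
    exact h1
  · intro n r
    apply e.injective
    rw [hψe, map_add, hψe]
    have h1 := hq n n.2.1 (e r)
    rw [C.subx] at h1
    exact h1
  · rw [Fin2.card_RK C e, hSc]
    have h1 := C.card_A
    calc Nat.card X ≤ _ := hc
      _ ≤ _ := Nat.mul_le_mul_right _ h1

theorem Fin2.final2 [Finite X] [Finite G]
    (hT : ∀ u v : X, t • u - u ≠ 0 → t • v - v ≠ 0 → t • u - u = t • v - v) : False := by
  obtain ⟨x0, e, hy0, hyN, he⟩ := C.exists_e
  obtain ⟨y, hy⟩ : ∃ y, y = t • x0 - x0 := ⟨_, rfl⟩
  have hT' : ∀ u : X, t • u - u = 0 ∨ t • u - u = y := by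
    intro u
    by_cases h : t • u - u = 0
    · exact Or.inl h
    · right; rw [hy]; exact hT u x0 h hy0
  rw [← hy] at hy0 hyN he
  have D := C.rdata he hy
  have hse : ∀ r, e (sg K t e r) = t • e r := fun r => e_sg r
  have hψ : ∀ n r, (C.ps n r).1 y = (n : G) • r.1 y := by
    intro n r
    rw [C.ps_apply, hyN _ (inv_mem n.2)]
  have hψe : ∀ n r, e (C.ps n r) = (n : G) • e r := by
    intro n r; rw [he, he, hψ]
  have I := C.invSimple he hψ
  have hfin : Finite (RK X K) := Finite.of_equiv X e.symm.toEquiv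
  have hnt := C.nontrivial
  have he1 : e 1 = y := by rw [he]; rfl
  obtain ⟨r1, hr1⟩ := e.surjective x0
  have hr1' : r1 + sg K t e r1 = 1 := by
    apply e.injective
    rw [map_add, hse, hr1, he1, hy, C.subx, add_comm]
  have htr : ∀ r, r + sg K t e r = 0 ∨ r + sg K t e r = 1 := by
    intro r
    rcases hT' (e r) with h | h
    · left; apply e.injective
      rw [map_add, hse, map_zero, ← h, C.subx, add_comm]
    · right; apply e.injective
      rw [map_add, hse, he1, ← h, C.subx, add_comm]
  have hψσ : ∀ n r, C.ps n (sg K t e r) = sg K t e (C.ps n r) := by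
    intro n r
    apply e.injective
    rw [hψe, hse, hse, hψe, ← mul_smul, ← mul_smul, C.comm t C.ht n n.2.1]
  have hZ : Nat.card (ZZ (sg K t e)) ≤ 2 := by
    have h1 : ∀ z : ZZ (sg K t e), z.1 = 0 ∨ z.1 = 1 := by
      intro z
      have h2 := D.tr_smul z.2 r1
      rw [hr1', mul_one] at h2
      rw [← h2]
      exact htr _
    classical
    let f : ZZ (sg K t e) → Bool := fun z => decide (z.1 = 0)
    have hf : Function.Injective f := by
      intro a b hab
      simp only [f, decide_eq_decide] at hab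
      apply Subtype.ext
      rcases h1 a with h | h <;> rcases h1 b with h' | h'
      · rw [h, h']
      · exact absurd (hab.1 h) (by rw [h']; exact one_ne_zero)
      · exact absurd (hab.2 h') (by rw [h]; exact one_ne_zero)
      · rw [h, h']
    have h3 := Nat.card_le_card_of_injective f hf
    rwa [Nat.card_eq_fintype_card (α := Bool), Fintype.card_bool] at h3
  have hsk : ∀ k : K, sg K t e (phK X K k) = phK X K k⁻¹ := by
    intro k
    apply e.injective
    rw [hse, he, he]
    change t • (k : G) • y = (k⁻¹ : G) • y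
    rw [hy]
    exact C.hk3 k.2 x0
  have hkk : ∀ k : K, phK X K k * phK X K k⁻¹ = 1 := by
    intro k
    rw [← map_mul, mul_inv_cancel, map_one]
  by_cases hex : ∃ k : K, phK X K k ≠ 1 ∧ phK X K k + phK X K k⁻¹ = 0
  · obtain ⟨k, hk1, hk2⟩ := hex
    have h1 : phK X K k⁻¹ = phK X K k := by
      have h3 : phK X K k = - phK X K k⁻¹ := eq_neg_of_add_eq_zero_left hk2
      rw [h3, D.neg]
    have hsq : phK X K k * phK X K k = 1 := by
      have h3 := hkk k
      rwa [h1] at h3
    have hσk : sg K t e (phK X K k + 1) = phK X K k + 1 := by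
      rw [map_add, hsk, h1, D.one]
    have hee : (phK X K k + 1) * (phK X K k + 1) = 0 := by
      rw [mul_add, add_mul, mul_one, one_mul, hsq]
      have h5 : ∀ a : RK X K, (1 : RK X K) + a + (a + 1) = (1 + 1) + (a + a) := by intro a; abel
      rw [h5, D.two, D.two, add_zero]
    have hne : phK X K k + 1 ≠ 0 := by
      intro h
      apply hk1
      have h6 : phK X K k = - 1 := eq_neg_of_add_eq_zero_left h
      rw [h6, D.neg]
    obtain ⟨s, hs⟩ := D.nondeg hψσ I hr1' hne
    have hs1 := (htr _).resolve_left hs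
    have h7 := D.card_le hσk hee hs1
    apply C.not_small
    calc Nat.card (RK X K) ≤ _ := h7
      _ ≤ 2 ^ 4 := Nat.pow_le_pow_left hZ 4
      _ = 16 := by norm_num
  · push Not at hex
    have hcube : ∀ k : K, phK X K k ^ 3 = 1 := by
      intro k
      by_cases h1 : phK X K k = 1
      · rw [h1, one_pow]
      have h2 := hex k h1
      rw [← hsk] at h2
      have h3 := (htr _).resolve_left h2
      rw [hsk] at h3
      have h4 := hkk k
      generalize phK X K k = a at *
      generalize phK X K k⁻¹ = b at *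
      -- b = a + 1
      have h5 : b = a + 1 := by
        calc b = (a + a) + b := by rw [D.two, zero_add]
          _ = a + (a + b) := by rw [add_assoc]
          _ = a + 1 := by rw [h3]
      rw [h5] at h4
      -- a * a + a = 1
      have h6 : a * a + a = 1 := by rw [← h4]; noncomm_ring
      have h7 : a * a = 1 + a := by
        calc a * a = a * a + (a + a) := by rw [D.two, add_zero]
          _ = (a * a + a) + a := by rw [add_assoc]
          _ = 1 + a := by rw [h6]
      calc a ^ 3 = (a * a) * a := by noncomm_ring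
        _ = (1 + a) * a := by rw [h7]
        _ = a * a + a := by noncomm_ring
        _ = 1 := h6
    have hP : IsPGroup 3 (phK X K).toHomUnits.range := by
      rintro ⟨_, ⟨k, rfl⟩⟩
      refine ⟨1, ?_⟩
      apply Subtype.ext
      rw [pow_one]
      apply Units.ext
      exact hcube k
    have : Fact (Nat.Prime 3) := ⟨Nat.prime_three⟩
    have hfin2 : Finite (RK X K)ˣ := inferInstance
    have hnil : Group.IsNilpotent (phK X K).toHomUnits.range := hP.isNilpotent
    exact C.not_solvable _ C.units_inj inferInstance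

end CfsgLib.LE11PGV
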