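import Mathlib
import Cfsg.Agent.EqBase
import Cfsg.Agent.LibLE11PGV8

set_option autoImplicit false
set_option linter.all false

/-! The core configuration of the P(G,V) theorem does not exist (helper11). -/

namespace CfsgLib.LE11PGV

open Subgroup Cfsg
open scoped commutatorElement

variable {G : Type*} [Group G] (V : Type*) [AddCommGroup V] [DistribMulAction G V]

/-- largest stable subgroup centralized by `K` -/
def V0 (K : Subgroup G) : AddSubgroup V where
  carrier := {v | ∀ g : G, g • v ∈ fx V K}
  zero_mem' := fun g => by rw [smul_zero]; exact zero_mem _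
  add_mem' := fun ha hb g => by rw [smul_add]; exact add_mem (ha g) (hb g)
  neg_mem' := fun ha g => by rw [smul_neg]; exact neg_mem (ha g)

theorem V0_stable (K : Subgroup G) (g : G) (x : V) (hx : x ∈ V0 V K) : g • x ∈ V0 V K := by
  intro h
  rw [← mul_smul]
  exact hx (h * g)

theorem V0_le (K : Subgroup G) : V0 V K ≤ fx V K := by
  intro x hx
  have := hx 1
  rwa [one_smul] at this

variable {V}

theorem le_V0 {K : Subgroup G} {Y : AddSubgroup V} (hY : ∀ g : G, ∀ y ∈ Y, g • y ∈ Y)
    (h : ∀ k ∈ K, ∀ y ∈ Y, k • y = y) : Y ≤ V0 V K := by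
  intro y hy g k hk
  exact h k hk _ (hY g y hy)

/-- action on the quotient -/
@[reducible] def qA (V : Type*) [AddCommGroup V] [DistribMulAction G V] (K : Subgroup G) :
    DistribMulAction G (V ⧸ V0 V K) := quotAct (V0 V K) (V0_stable V K)

variable {p : ℕ} [hp : Fact p.Prime] [Finite G] [Finite V] [FaithfulSMul G V] {A K : Subgroup G}
  (C : Core p V A K)
include C

theorem Core.trivial_quot {n : G} (hn : n ∈ A) (hnN : n ∈ normalizer (K : Set G))
    (h : ∀ v : V, n • v - v ∈ V0 V K) : n = 1 := by
  apply C.eq_one hn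
  have hnK : ∀ g ∈ K, n * g * n⁻¹ ∈ K := fun g hg => (mem_normalizer_iff.1 hnN g).1 hg
  -- elements of `G` acting trivially on the quotient
  let M : Subgroup G :=
    { carrier := {g | ∀ v : V, g • v - v ∈ V0 V K}
      one_mem' := fun v => by rw [one_smul, sub_self]; exact zero_mem _
      mul_mem' := by
        intro a b ha hb v
        have h3 : (a * b) • v - v = (a • b • v - b • v) + (b • v - v) := by rw [mul_smul]; abel
        rw [h3]; exact add_mem (ha _) (hb _)
      inv_mem' := by
        intro a ha v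
        have h1 := ha (a⁻¹ • v)
        rw [smul_inv_smul] at h1
        have h3 : a⁻¹ • v - v = -(v - a⁻¹ • v) := by abel
        rw [h3]; exact neg_mem h1 }
  have hM : ∀ g x : G, x ∈ M → g * x * g⁻¹ ∈ M := by
    intro g x hx v
    have h2 : (g * x * g⁻¹) • v - v = g • (x • g⁻¹ • v - g⁻¹ • v) := by
      rw [smul_sub, mul_smul, mul_smul, smul_inv_smul]
    rw [h2]
    exact V0_stable V K _ _ (hx _)
  have hnM : n ∈ M := h
  rcases qs_normal C.qs (L := K ⊓ M) inf_le_left (by
    intro k hk l hl
    exact ⟨K.mul_mem (K.mul_mem hk hl.1) (K.inv_mem hk), hM k l hl.2⟩) with h1 | h1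
  · exfalso
    apply C.nontriv (V := V)
    apply stab C.perf
    intro k hk x hx v
    have h2 : k ∈ K ⊓ M := by rw [h1]; exact hk
    exact V0_le V K (h2.2 v) x hx
  · apply central_aut C.perf hnK
    intro g hg k hk
    apply h1 _ _ k hk
    refine ⟨K.mul_mem (hnK g hg) (K.inv_mem hg), ?_⟩
    have h4 : n * g * n⁻¹ * g⁻¹ = n * (g * n⁻¹ * g⁻¹) := by group
    rw [h4]
    exact M.mul_mem hnM (hM g _ (M.inv_mem hnM))

theorem Core.fin2 (hp2 : p = 2) {t : G} (ht : t ∈ A) (htN : t ∉ normalizer (K : Set G))
    (hcos : ∀ a ∈ A, a ∈ normalizer (K : Set G) ∨ a * t ∈ normalizer (K : Set G)) :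
    @Fin2 G _ (V ⧸ V0 V K) _ (qA V K) A K t := by
  subst hp2
  letI := qA V K
  have hmk : ∀ (g : G) (v : V), g • (QuotientAddGroup.mk v : V ⧸ V0 V K) = QuotientAddGroup.mk (g • v) :=
    fun _ _ => rfl
  have hQ : ∀ g h : G, QQ V g h → QQ (V ⧸ V0 V K) g h := by
    intro g h H x
    obtain ⟨v, rfl⟩ := QuotientAddGroup.mk_surjective x
    exact congrArg (QuotientAddGroup.mk (s := V0 V K)) (H v)
  refine ⟨?_, C.comm, ?_, C.perf, ht, (C.dich t ht).resolve_left htN, hcos, C.gen, ?_, ?_, ?_⟩
  · intro x
    obtain ⟨v, rfl⟩ := QuotientAddGroup.mk_surjective x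
    have h1 := C.hV v
    rw [two_nsmul] at h1
    exact congrArg (QuotientAddGroup.mk (s := V0 V K)) h1
  · intro a ha
    rw [← sq]; exact C.exp a ha
  · intro Y hY
    let Y' : AddSubgroup V := Y.comap (QuotientAddGroup.mk' (V0 V K))
    have hY' : ∀ g : G, ∀ y ∈ Y', g • y ∈ Y' := fun g y hy => hY g _ hy
    by_cases htop : Y' = ⊤
    · right
      rw [eq_top_iff]
      intro x _
      obtain ⟨v, rfl⟩ := QuotientAddGroup.mk_surjective x
      have : v ∈ Y' := by rw [htop]; trivial
      exact this
    · left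
      have h1 := le_V0 hY' (C.irr Y' hY' htop)
      rw [eq_bot_iff]
      intro x hx
      obtain ⟨v, rfl⟩ := QuotientAddGroup.mk_surjective x
      rw [AddSubgroup.mem_bot]
      exact (QuotientAddGroup.eq_zero_iff v).2 (h1 hx)
  · intro h
    apply C.nontriv (V := V)
    apply stab C.perf
    intro k hk x hx v
    have h2 := h k hk (QuotientAddGroup.mk v)
    rw [hmk, ← sub_eq_zero] at h2
    have h3 : k • v - v ∈ V0 V K := (QuotientAddGroup.eq_zero_iff _).1 h2
    exact V0_le V K h3 x hx
  · intro k hk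
    apply hQ
    have h1 := C.star ht htN k hk
    have hPP : PP t k 2 = k * (t * k * t⁻¹) := by simp [PP]
    rwa [hPP] at h1

theorem Core.card_quot : Nat.card (V ⧸ V0 V K) * Nat.card (V0 V K) = Nat.card V := by
  rw [mul_comm]
  exact AddSubgroup.card_mul_index (V0 V K)

theorem Core.card_fx : letI := qA V K; Nat.card (fx V A) ≤ Nat.card (fx (V ⧸ V0 V K) A) * Nat.card (V0 V K) := by
  letI := qA V K
  let f : fx V A →+ V ⧸ V0 V K := (QuotientAddGroup.mk' (V0 V K)).comp (fx V A).subtype
  have h1 : Nat.card (fx V A) = Nat.card f.ker * Nat.card f.range := by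
    rw [← AddSubgroup.card_mul_index f.ker, AddSubgroup.index_ker]
  have h2 : Nat.card f.ker ≤ Nat.card (V0 V K) := by
    have hk : ∀ x : f.ker, ((x : fx V A) : V) ∈ V0 V K := fun x => (QuotientAddGroup.eq_zero_iff _).1 x.2
    refine Nat.card_le_card_of_injective (fun x : f.ker => (⟨((x : fx V A) : V), hk x⟩ : V0 V K)) ?_
    intro a b hab
    have hab' : ((a : fx V A) : V) = ((b : fx V A) : V) := congrArg (fun z : V0 V K => (z : V)) hab
    exact Subtype.ext (Subtype.ext hab')
  have h3 : Nat.card f.range ≤ Nat.card (fx (V ⧸ V0 V K) A) := by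
    have hle : f.range ≤ fx (V ⧸ V0 V K) A := by
      rintro _ ⟨x, rfl⟩ a ha
      exact congrArg (QuotientAddGroup.mk (s := V0 V K)) (x.2 a ha)
    exact Nat.card_le_card_of_injective _ (AddSubgroup.inclusion_injective hle)
  rw [h1, mul_comm]
  exact Nat.mul_le_mul h3 h2

theorem Core.card_le_quot : letI := qA V K; Nat.card (V ⧸ V0 V K) ≤ Nat.card A * Nat.card (fx (V ⧸ V0 V K) A) := by
  letI := qA V K
  have h1 := C.off ⊥ bot_le
  have h2 : jj V (⊥ : Subgroup G) = Nat.card V := by
    have h3 : fx V (⊥ : Subgroup G) = ⊤ := by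
      rw [eq_top_iff]
      intro v _ b hb
      rw [mem_bot.1 hb, one_smul]
    rw [jj, h3, card_bot, one_mul, AddSubgroup.card_top]
  rw [h2, ← C.card_quot] at h1
  have h3 := C.card_fx
  have h4 : Nat.card (V ⧸ V0 V K) * Nat.card (V0 V K) ≤
      (Nat.card A * Nat.card (fx (V ⧸ V0 V K) A)) * Nat.card (V0 V K) := by
    calc _ ≤ _ := h1
      _ ≤ Nat.card A * (Nat.card (fx (V ⧸ V0 V K) A) * Nat.card (V0 V K)) := Nat.mul_le_mul_left _ h3
      _ = _ := by ring
  exact Nat.le_of_mul_le_mul_right h4 Nat.card_pos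

theorem Core.contra {b : G} (hb : b ∈ A) (hbN : b ∉ normalizer (K : Set G)) : False := by
  have hp2 := C.p_eq_two hb hbN
  obtain ⟨t, ht, htN, hcos⟩ := C.two_cosets hp2 hb hbN
  subst hp2
  have hinv : ∀ a ∈ A, a * a = 1 := by
    intro a ha
    rw [← sq]; exact C.exp a ha
  have hne : fx V A ≠ ⊤ := by
    intro h
    apply hbN
    have : b = 1 := by
      apply eq_of_smul_eq_smul (α := V)
      intro v
      rw [one_smul]
      have hv : v ∈ fx V A := by rw [h]; trivial
      exact hv b hb
    rw [this]; exact one_mem _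
  obtain ⟨B, hBA, hBne, hBj, hBq⟩ := timmesfeld V C.hV C.comm C.isP C.off hne
  by_cases hex : ∃ n0 ∈ B, n0 ∈ normalizer (K : Set G) ∧ n0 ≠ 1
  · obtain ⟨n0, hn0, hn0N, hn01⟩ := hex
    have F := C.fin2 rfl ht htN hcos
    letI := qA V K
    have hmk : ∀ (g : G) (v : V), g • (QuotientAddGroup.mk v : V ⧸ V0 V K) = QuotientAddGroup.mk (g • v) :=
      fun _ _ => rfl
    have hfaith : ∀ n ∈ A ⊓ normalizer (K : Set G), (∀ x : V ⧸ V0 V K, n • x = x) → n = 1 := by
      intro n hn h
      apply C.trivial_quot hn.1 hn.2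
      intro v
      have h2 := h (QuotientAddGroup.mk v)
      rw [hmk, ← sub_eq_zero] at h2
      exact (QuotientAddGroup.eq_zero_iff _).1 h2
    refine F.final1 (n0 := n0) ⟨hBA hn0, hn0N⟩ ?_ ?_ hfaith C.card_le_quot
    · by_contra hno
      push Not at hno
      exact hn01 (hfaith n0 ⟨hBA hn0, hn0N⟩ hno)
    · intro c hc x
      obtain ⟨v, rfl⟩ := QuotientAddGroup.mk_surjective x
      have h1 := (hBq c hc n0 hn0).symm (C.comm c hc n0 (hBA hn0))
      exact congrArg (QuotientAddGroup.mk (s := V0 V K)) (h1 v)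
  · push Not at hex
    obtain ⟨t', ht', ht'1⟩ : ∃ t' ∈ B, t' ≠ 1 := by
      by_contra hno
      push Not at hno
      apply hBne
      rw [eq_bot_iff]
      intro x hx
      rw [mem_bot]
      exact hno x hx
    have ht'N : t' ∉ normalizer (K : Set G) := fun h => ht'1 (hex t' ht' h)
    have ht't : t' * t ∈ normalizer (K : Set G) := (hcos t' (hBA ht')).resolve_left ht'N
    have hcos' : ∀ a ∈ A, a ∈ normalizer (K : Set G) ∨ a * t' ∈ normalizer (K : Set G) := by
      intro a ha
      rcases hcos a ha with h | h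
      · exact Or.inl h
      · right
        have h1 : a * t' = (a * t) * (t' * t) := by
          calc a * t' = a * t' * (t * t) := by rw [hinv t ht, mul_one]
            _ = a * (t' * t) * t := by group
            _ = a * (t * t') * t := by rw [C.comm t' (hBA ht') t ht]
            _ = _ := by group
        rw [h1]; exact mul_mem h ht't
    have hB2 : ∀ b ∈ B, b = 1 ∨ b = t' := by
      intro b hb
      by_cases h1 : b ∈ normalizer (K : Set G)
      · exact Or.inl (hex b hb h1)
      · right
        have h2 := (hcos' b (hBA hb)).resolve_left h1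
        have h3 := hex _ (B.mul_mem hb ht') h2
        have h4 : b = t'⁻¹ := eq_inv_of_mul_eq_one_left h3
        rw [h4]
        exact inv_eq_of_mul_eq_one_left (hinv t' (hBA ht'))
    have hBc : Nat.card B ≤ 2 := by
      classical
      let f : B → Bool := fun z => decide (z.1 = 1)
      have hf : Function.Injective f := by
        intro a b hab
        simp only [f, decide_eq_decide] at hab
        apply Subtype.ext
        rcases hB2 a a.2 with h | h <;> rcases hB2 b b.2 with h' | h'
        · rw [h, h']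
        · exact absurd (hab.1 h) (by rw [h']; exact ht'1)
        · exact absurd (hab.2 h') (by rw [h]; exact ht'1)
        · rw [h, h']
      have h3 := Nat.card_le_card_of_injective f hf
      rwa [Nat.card_eq_fintype_card (α := Bool), Fintype.card_bool] at h3
    have h1 := C.off ⊥ bot_le
    have h2 : jj V (⊥ : Subgroup G) = Nat.card V := by
      have h3 : fx V (⊥ : Subgroup G) = ⊤ := by
        rw [eq_top_iff]
        intro v _ b hb
        rw [mem_bot.1 hb, one_smul]
      rw [jj, h3, card_bot, one_mul, AddSubgroup.card_top]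
    rw [h2, ← hBj, jj] at h1
    have h3 : Nat.card V ≤ 2 * Nat.card (fx V B) := h1.trans (Nat.mul_le_mul_right _ hBc)
    rw [← AddSubgroup.card_mul_index (fx V B), mul_comm 2] at h3
    have h4 : (fx V B).index ≤ 2 := Nat.le_of_mul_le_mul_left h3 Nat.card_pos
    have h5 : ∀ u v : V, u ∉ fx V B → v ∉ fx V B → u - v ∈ fx V B := by
      intro u v hu hv
      have h6 : (fx V B).index ≠ 1 := by
        intro h
        rw [AddSubgroup.index_eq_one] at h
        exact hu (by rw [h]; trivial)
      have h7 : (fx V B).index ≠ 0 := AddSubgroup.index_ne_zero_of_finite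
      have h8 : (fx V B).index = 2 := by omega
      rw [sub_eq_add_neg]
      exact (AddSubgroup.add_mem_iff_of_index_two h8).2 (by
        rw [neg_mem_iff]
        exact ⟨fun h => (hu h).elim, fun h => (hv h).elim⟩)
    have hfxB : ∀ v : V, t' • v = v → v ∈ fx V B := by
      intro v hv b hb
      rcases hB2 b hb with h | h
      · rw [h, one_smul]
      · rw [h, hv]
    have F := C.fin2 rfl (hBA ht') ht'N hcos'
    letI := qA V K
    apply F.final2
    intro u v hu hv
    obtain ⟨u, rfl⟩ := QuotientAddGroup.mk_surjective u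
    obtain ⟨v, rfl⟩ := QuotientAddGroup.mk_surjective v
    have hu' : u ∉ fx V B := by
      intro h
      apply hu
      rw [sub_eq_zero]
      exact congrArg (QuotientAddGroup.mk (s := V0 V K)) (h t' ht')
    have hv' : v ∉ fx V B := by
      intro h
      apply hv
      rw [sub_eq_zero]
      exact congrArg (QuotientAddGroup.mk (s := V0 V K)) (h t' ht')
    have h6 := h5 u v hu' hv' t' ht'
    rw [smul_sub] at h6
    have h7 : t' • u - u = t' • v - v := by
      have h8 : t' • u = t' • v + (u - v) := by rw [← h6]; abel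
      rw [h8]; abel
    exact congrArg (QuotientAddGroup.mk (s := V0 V K)) h7

end CfsgLib.LE11PGV
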