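import Mathlib
import Cfsg.Agent.EqBase
import Cfsg.Agent.LibLE11PGV9
import Cfsg.Agent.LibPComp

set_option autoImplicit false
set_option linter.all false

/-! The P(G,V) theorem (helper11). -/

namespace CfsgLib.LE11PGV

open Subgroup Cfsg
open scoped commutatorElement

/-- action of the image -/
@[reducible] def rangeAct (H : Type*) [Group H] (W : Type*) [AddCommGroup W] [DistribMulAction H W] :
    DistribMulAction (MulAction.toPermHom H W).range W where
  smul g w := g.1 w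
  one_smul w := rfl
  mul_smul g h w := rfl
  smul_zero g := by obtain ⟨_, h, rfl⟩ := g; exact smul_zero h
  smul_add g x y := by obtain ⟨_, h, rfl⟩ := g; exact smul_add h x y

/-- off-ness passes to images on a stable subgroup -/
theorem card_fx_sub {G : Type*} [Group G] {V : Type*} [AddCommGroup V] [DistribMulAction G V] [Finite V]
    {B A : Subgroup G} (hBA : B ≤ A) (W : AddSubgroup V) :
    Nat.card (W ⊓ fx V B : AddSubgroup V) * Nat.card (fx V A) ≤
      Nat.card (fx V B) * Nat.card (W ⊓ fx V A : AddSubgroup V) := by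
  have h1 := add_card_sup_mul V (W ⊓ fx V B) (fx V A)
  have h2 : (W ⊓ fx V B) ⊓ fx V A = W ⊓ fx V A := by
    rw [inf_assoc, inf_eq_right.2 (fx_anti V hBA)]
  rw [h2] at h1
  rw [← h1]
  apply Nat.mul_le_mul_right
  exact Nat.card_le_card_of_injective _ (AddSubgroup.inclusion_injective
    (sup_le inf_le_right (fx_anti V hBA)))

theorem stable_sup {G : Type*} [Group G] {V : Type*} [AddCommGroup V] [DistribMulAction G V]
    {A K : Subgroup G} {X : AddSubgroup V}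
    (hA : ∀ a ∈ A, ∀ x ∈ X, a • x ∈ X) (hK : ∀ a ∈ K, ∀ x ∈ X, a • x ∈ X) :
    ∀ g ∈ A ⊔ K, ∀ x ∈ X, g • x ∈ X := by
  let S : Subgroup G :=
    { carrier := {g | (∀ x ∈ X, g • x ∈ X) ∧ (∀ x ∈ X, g⁻¹ • x ∈ X)}
      one_mem' := by simp
      mul_mem' := by
        rintro a b ⟨ha, ha'⟩ ⟨hb, hb'⟩
        refine ⟨fun x hx => ?_, fun x hx => ?_⟩
        · rw [mul_smul]; exact ha _ (hb _ hx)
        · rw [mul_inv_rev, mul_smul]; exact hb' _ (ha' _ hx)
      inv_mem' := by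
        rintro a ⟨ha, ha'⟩
        exact ⟨ha', by rw [inv_inv]; exact ha⟩ }
  have h1 : A ⊔ K ≤ S := sup_le (fun a ha => ⟨hA a ha, hA _ (A.inv_mem ha)⟩)
    (fun a ha => ⟨hK a ha, hK _ (K.inv_mem ha)⟩)
  intro g hg
  exact (h1 hg).1

theorem pgv_aux {G : Type*} [Group G] [Finite G] {V : Type*} [AddCommGroup V] [DistribMulAction G V] [Finite V]
    {p : ℕ} [hp : Fact p.Prime] (hV : ∀ v : V, p • v = 0)
    {A K : Subgroup G} (hcomm : ∀ a ∈ A, ∀ b ∈ A, a * b = b * a) (hexp : ∀ a ∈ A, a ^ p = 1)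
    (hoff : ∀ B ≤ A, jj V B ≤ jj V A) (hK : IsQuasisimple K) (hdich : ∀ a : G, a ∈ normalizer (K : Set G) ∨
      ∀ k ∈ K, ∀ l ∈ K, k * (a * l * a⁻¹) = (a * l * a⁻¹) * k) {a1 : G} (ha1 : a1 ∈ A)
    (ha1N : a1 ∉ normalizer (K : Set G)) {W : AddSubgroup V}
    (hW1 : ∀ a ∈ A, ∀ x ∈ W, a • x ∈ W) (hW2 : ∀ k ∈ K, ∀ x ∈ W, k • x ∈ W)
    (hW3 : ¬ ∀ k ∈ K, ∀ x ∈ W, k • x = x)
    (hmin : ∀ Y : AddSubgroup V, (∀ a ∈ A, ∀ x ∈ Y, a • x ∈ Y) → (∀ k ∈ K, ∀ x ∈ Y, k • x ∈ Y) →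
      (¬ ∀ k ∈ K, ∀ x ∈ Y, k • x = x) → Nat.card W ≤ Nat.card Y)
    {G' : Type*} [Group G'] [Finite G'] [DistribMulAction G' W] [FaithfulSMul G' W]
    (f : (A ⊔ K : Subgroup G) →* G') (hfs : Function.Surjective f)
    (hfw : ∀ (h : (A ⊔ K : Subgroup G)) (w : W), ((f h • w : W) : V) = (h : G) • (w : V)) : False := by
  classical
  have hAH : A ≤ A ⊔ K := le_sup_left
  have hKH : K ≤ A ⊔ K := le_sup_right
  -- images
  obtain ⟨A', hA'⟩ : ∃ A' : Subgroup G', A' = (A.subgroupOf (A ⊔ K)).map f := ⟨_, rfl⟩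
  obtain ⟨K', hK'⟩ : ∃ K' : Subgroup G', K' = (K.subgroupOf (A ⊔ K)).map f := ⟨_, rfl⟩
  have memA : ∀ x, x ∈ A' ↔ ∃ a, ∃ h : a ∈ A, f ⟨a, hAH h⟩ = x := by
    intro x
    rw [hA']
    constructor
    · rintro ⟨⟨a, ha⟩, ha', rfl⟩
      exact ⟨a, mem_subgroupOf.1 ha', rfl⟩
    · rintro ⟨a, ha, rfl⟩
      exact ⟨⟨a, hAH ha⟩, mem_subgroupOf.2 ha, rfl⟩
  have memK : ∀ x, x ∈ K' ↔ ∃ a, ∃ h : a ∈ K, f ⟨a, hKH h⟩ = x := by
    intro x
    rw [hK']
    constructor
    · rintro ⟨⟨a, ha⟩, ha', rfl⟩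
      exact ⟨a, mem_subgroupOf.1 ha', rfl⟩
    · rintro ⟨a, ha, rfl⟩
      exact ⟨⟨a, hKH ha⟩, mem_subgroupOf.2 ha, rfl⟩
  have hgen : A' ⊔ K' = ⊤ := by
    rw [hA', hK', ← Subgroup.map_sup]
    have h1 : A.subgroupOf (A ⊔ K) ⊔ K.subgroupOf (A ⊔ K) = ⊤ := by
      rw [← subgroupOf_sup hAH hKH, subgroupOf_self]
    rw [h1, ← MonoidHom.range_eq_map, MonoidHom.range_eq_top.2 hfs]
  have hKne : K' ≠ ⊥ := by
    intro h
    apply hW3
    intro k hk x hx
    have h1 : f ⟨k, hKH hk⟩ ∈ K' := (memK _).2 ⟨k, hk, rfl⟩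
    rw [h, mem_bot] at h1
    have h2 := hfw ⟨k, hKH hk⟩ ⟨x, hx⟩
    rw [h1, one_smul] at h2
    exact h2.symm
  have hqs : IsQuasisimple K' := by
    have hnt : Nontrivial K' := (nontrivial_iff_ne_bot _).2 hKne
    subst hK'
    exact CfsgLib.PComp.quasisimple_of_surjective_image (f.subgroupMap _) (f.subgroupMap_surjective _)
      (CfsgLib.Comp.quasisimple_equiv (subgroupOfEquivOfLe hKH).symm hK) hnt
  have hnorm : ∀ a, ∀ ha : a ∈ A, a ∈ normalizer (K : Set G) → f ⟨a, hAH ha⟩ ∈ normalizer (K' : Set G') := by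
    intro a ha haN
    have key : ∀ b, ∀ hb : b ∈ A, b ∈ normalizer (K : Set G) → ∀ x ∈ K', f ⟨b, hAH hb⟩ * x * (f ⟨b, hAH hb⟩)⁻¹ ∈ K' := by
      intro b hb hbN x hx
      obtain ⟨k, hk, rfl⟩ := (memK x).1 hx
      refine (memK _).2 ⟨b * k * b⁻¹, (mem_normalizer_iff.1 hbN k).1 hk, ?_⟩
      rw [← map_mul, ← map_inv, ← map_mul]; rfl
    rw [mem_normalizer_iff]
    intro x
    constructor
    · exact key a ha haN x
    · intro hx
      have h1 := key a⁻¹ (A.inv_mem ha) (inv_mem haN) _ hx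
      have h2 : f ⟨a⁻¹, hAH (A.inv_mem ha)⟩ = (f ⟨a, hAH ha⟩)⁻¹ := by rw [← map_inv]; rfl
      rw [h2] at h1
      have h3 : (f ⟨a, hAH ha⟩)⁻¹ * (f ⟨a, hAH ha⟩ * x * (f ⟨a, hAH ha⟩)⁻¹) * (f ⟨a, hAH ha⟩)⁻¹⁻¹ = x := by group
      rwa [h3] at h1
  have hcc : ∀ a, ∀ ha : a ∈ A, (∀ k ∈ K, ∀ l ∈ K, k * (a * l * a⁻¹) = (a * l * a⁻¹) * k) →
      ∀ k ∈ K', ∀ l ∈ K', k * (f ⟨a, hAH ha⟩ * l * (f ⟨a, hAH ha⟩)⁻¹) =
        (f ⟨a, hAH ha⟩ * l * (f ⟨a, hAH ha⟩)⁻¹) * k := by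
    intro a ha h k hk l hl
    obtain ⟨k0, hk0, rfl⟩ := (memK k).1 hk
    obtain ⟨l0, hl0, rfl⟩ := (memK l).1 hl
    rw [← map_mul, ← map_inv, ← map_mul, ← map_mul, ← map_mul]
    exact congrArg f (Subtype.ext (h k0 hk0 l0 hl0))
  -- cardinalities
  have hfxB : ∀ B' : Subgroup G', ∀ B : Subgroup G, B ≤ A → (∀ x, x ∈ B' ↔ ∃ a, ∃ h : a ∈ A, a ∈ B ∧ f ⟨a, hAH h⟩ = x) →
      Nat.card (fx W B') = Nat.card (W ⊓ fx V B : AddSubgroup V) := by
    intro B' B hBA hB
    refine Nat.card_congr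
      { toFun := fun w => ⟨(w : W).1, (w : W).2, fun b hb => ?_⟩
        invFun := fun w => ⟨⟨w.1, w.2.1⟩, fun b hb => ?_⟩
        left_inv := fun w => rfl
        right_inv := fun w => rfl }
    · have h1 : f ⟨b, hAH (hBA hb)⟩ ∈ B' := (hB _).2 ⟨b, hBA hb, hb, rfl⟩
      have h2 := w.2 _ h1
      rw [← hfw ⟨b, hAH (hBA hb)⟩, h2]
    · obtain ⟨a, ha, haB, rfl⟩ := (hB b).1 hb
      apply Subtype.ext
      rw [hfw]
      exact w.2.2 a haB
  have hoff' : ∀ B' ≤ A', jj W B' ≤ jj W A' := by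
    intro B' hB'
    -- preimage
    let B : Subgroup G := ((B'.comap f).map (A ⊔ K).subtype) ⊓ A
    have memB : ∀ a, ∀ ha : a ∈ A, a ∈ B ↔ f ⟨a, hAH ha⟩ ∈ B' := by
      intro a ha
      constructor
      · rintro ⟨⟨⟨b, hb⟩, hb', rfl⟩, _⟩
        exact hb'
      · intro h
        exact ⟨⟨⟨a, hAH ha⟩, h, rfl⟩, ha⟩
    have hBA : B ≤ A := inf_le_right
    have hB1 := hfxB B' B hBA (by
      intro x
      constructor
      · intro hx
        obtain ⟨a, ha, rfl⟩ := (memA x).1 (hB' hx)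
        exact ⟨a, ha, (memB a ha).2 hx, rfl⟩
      · rintro ⟨a, ha, haB, rfl⟩
        exact (memB a ha).1 haB)
    have hA1 := hfxB A' A le_rfl (by
      intro x
      rw [memA]
      exact ⟨fun ⟨a, h, h'⟩ => ⟨a, h, h, h'⟩, fun ⟨a, h, _, h'⟩ => ⟨a, h, h'⟩⟩)
    -- orders
    let g : A →* G' := f.comp (inclusion hAH)
    have hgB : ∀ C' : Subgroup G', ∀ C : Subgroup G, C' ≤ A' → C ≤ A → (∀ a, ∀ ha : a ∈ A, a ∈ C ↔ f ⟨a, hAH ha⟩ ∈ C') →
        Nat.card C = Nat.card C' * Nat.card g.ker := by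
      intro C' C hC' hC hmem
      let gC : C →* C' :=
        { toFun := fun c => ⟨f ⟨c, hAH (hC c.2)⟩, (hmem c (hC c.2)).1 c.2⟩
          map_one' := Subtype.ext (map_one f)
          map_mul' := fun a b => Subtype.ext (map_mul f ⟨a, hAH (hC a.2)⟩ ⟨b, hAH (hC b.2)⟩) }
      have hsurj : Function.Surjective gC := by
        rintro ⟨x, hx⟩
        obtain ⟨a, ha, rfl⟩ := (memA x).1 (hC' hx)
        exact ⟨⟨a, (hmem a ha).2 hx⟩, rfl⟩
      have h1 : Nat.card C = Nat.card C' * Nat.card gC.ker := by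
        rw [← card_mul_index gC.ker, index_ker, MonoidHom.range_eq_top.2 hsurj, card_top, mul_comm]
      rw [h1]
      congr 1
      refine Nat.card_congr
        { toFun := fun c => ⟨⟨(c : C), hC (c : C).2⟩, ?_⟩
          invFun := fun c => ⟨⟨(c : A), (hmem _ (c : A).2).2 ?_⟩, ?_⟩
          left_inv := fun c => rfl
          right_inv := fun c => rfl }
      · exact congrArg Subtype.val (show gC c = 1 from c.2)
      · have h2 : f ⟨(c : A), hAH (c : A).2⟩ = 1 := c.2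
        rw [h2]; exact one_mem _
      · have h2 : f ⟨(c : A), hAH (c : A).2⟩ = 1 := c.2
        exact Subtype.ext h2
    have hcB := hgB B' B hB' hBA memB
    have hcA := hgB A' A le_rfl le_rfl (by
      intro a ha
      exact ⟨fun _ => (memA _).2 ⟨a, ha, rfl⟩, fun _ => ha⟩)
    have h1 := hoff B hBA
    have h2 := card_fx_sub (V := V) hBA W
    rw [jj, jj] at h1
    rw [jj, jj, hB1, hA1]
    have hpos1 : 0 < Nat.card (fx V A) := Nat.card_pos
    have hpos2 : 0 < Nat.card g.ker := Nat.card_pos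
    rw [hcB, hcA] at h1
    generalize Nat.card (fx V A) = x at *
    generalize Nat.card (fx V B) = y at *
    generalize Nat.card g.ker = z at *
    generalize Nat.card (W ⊓ fx V A : AddSubgroup V) = u at *
    generalize Nat.card (W ⊓ fx V B : AddSubgroup V) = v at *
    generalize Nat.card B' = b at *
    generalize Nat.card A' = a at *
    have h3 : (b * v) * (z * x) ≤ (a * u) * (z * x) := by
      calc (b * v) * (z * x) = (b * z) * (v * x) := by ring
        _ ≤ (b * z) * (y * u) := Nat.mul_le_mul_left _ h2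
        _ = (b * z * y) * u := by ring
        _ ≤ (a * z * x) * u := Nat.mul_le_mul_right _ h1
        _ = _ := by ring
    exact Nat.le_of_mul_le_mul_right h3 (Nat.mul_pos hpos2 hpos1)
  have C : Core p W A' K' := by
    refine ⟨?_, ?_, ?_, hqs, ?_, hgen, ?_, hoff'⟩
    · intro w
      exact Subtype.ext (hV w)
    · intro a ha b hb
      obtain ⟨a0, ha0, rfl⟩ := (memA a).1 ha
      obtain ⟨b0, hb0, rfl⟩ := (memA b).1 hb
      rw [← map_mul, ← map_mul]
      exact congrArg f (Subtype.ext (hcomm a0 ha0 b0 hb0))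
    · intro a ha
      obtain ⟨a0, ha0, rfl⟩ := (memA a).1 ha
      rw [← map_pow, ← map_one f]
      exact congrArg f (Subtype.ext (hexp a0 ha0))
    · intro a ha
      obtain ⟨a0, ha0, rfl⟩ := (memA a).1 ha
      rcases hdich a0 with h | h
      · exact Or.inl (hnorm a0 ha0 h)
      · exact Or.inr (hcc a0 ha0 h)
    · intro X hX hXt
      by_contra hno
      apply hXt
      have h1 : Nat.card W ≤ Nat.card (X.map W.subtype) := by
        apply hmin
        · rintro a ha _ ⟨x, hx, rfl⟩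
          refine ⟨f ⟨a, hAH ha⟩ • x, hX _ x hx, ?_⟩
          exact hfw _ _
        · rintro a ha _ ⟨x, hx, rfl⟩
          refine ⟨f ⟨a, hKH ha⟩ • x, hX _ x hx, ?_⟩
          exact hfw _ _
        · intro h
          apply hno
          intro k hk x hx
          obtain ⟨k0, hk0, rfl⟩ := (memK k).1 hk
          apply Subtype.ext
          rw [hfw]
          exact h k0 hk0 _ ⟨x, hx, rfl⟩
      have h2 : Nat.card (X.map W.subtype) = Nat.card X :=
        Nat.card_congr (X.equivMapOfInjective W.subtype W.subtype_injective).toEquiv.symm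
      rw [h2] at h1
      exact AddSubgroup.eq_top_of_le_card X h1
  by_cases h : f ⟨a1, hAH ha1⟩ ∈ normalizer (K' : Set G')
  · -- `K'` would be abelian
    have h1 := (hdich a1).resolve_left ha1N
    have h2 := hcc a1 ha1 h1
    apply hKne
    rw [← C.perf, eq_bot_iff, commutator_le]
    intro x hx y hy
    rw [mem_bot, commutatorElement_def]
    have h3 : (f ⟨a1, hAH ha1⟩)⁻¹ * y * (f ⟨a1, hAH ha1⟩)⁻¹⁻¹ ∈ K' := (mem_normalizer_iff.1 (inv_mem h) y).1 hy
    have h4 := h2 x hx _ h3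
    have h5 : f ⟨a1, hAH ha1⟩ * ((f ⟨a1, hAH ha1⟩)⁻¹ * y * (f ⟨a1, hAH ha1⟩)⁻¹⁻¹) * (f ⟨a1, hAH ha1⟩)⁻¹ = y := by group
    rw [h5] at h4
    rw [h4]; group
  · exact C.contra ((memA _).2 ⟨a1, ha1, rfl⟩) h

theorem pgv {G : Type*} [Group G] [Finite G] {V : Type*} [AddCommGroup V] [DistribMulAction G V] [Finite V]
    {p : ℕ} [hp : Fact p.Prime] (hV : ∀ v : V, p • v = 0) (hfaith : ∀ g : G, (∀ v : V, g • v = v) → g = 1)
    {A K : Subgroup G} (hcomm : ∀ a ∈ A, ∀ b ∈ A, a * b = b * a) (hexp : ∀ a ∈ A, a ^ p = 1)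
    (hoff : ∀ B ≤ A, jj V B ≤ jj V A) (hK : IsComponent K) : A ≤ normalizer (K : Set G) := by
  classical
  intro a1 ha1
  by_contra ha1N
  -- dichotomy
  have hdich : ∀ a : G, a ∈ normalizer (K : Set G) ∨
      ∀ k ∈ K, ∀ l ∈ K, k * (a * l * a⁻¹) = (a * l * a⁻¹) * k := by
    intro a
    by_cases h : K.map (MulAut.conj a).toMonoidHom = K
    · left
      rw [mem_normalizer_iff]
      intro x
      constructor
      · intro hx
        rw [← h]; exact ⟨x, hx, rfl⟩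
      · intro hx
        rw [← h] at hx
        obtain ⟨y, hy, hyx⟩ := hx
        have : a * y * a⁻¹ = a * x * a⁻¹ := hyx
        have h2 : y = x := mul_left_cancel (mul_right_cancel this)
        rw [← h2]; exact hy
    · right
      have hc := CfsgLib.Comp.components_commute hK (CfsgLib.Comp.isComponent_map_equiv (MulAut.conj a) hK) (Ne.symm h)
      intro k hk l hl
      rw [commutator_eq_bot_iff_le_centralizer] at hc
      exact (mem_centralizer_iff.1 (hc hk) _ ⟨l, hl, rfl⟩).symm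
  -- a minimal submodule
  let S : Set (AddSubgroup V) := {W | (∀ a ∈ A, ∀ x ∈ W, a • x ∈ W) ∧ (∀ k ∈ K, ∀ x ∈ W, k • x ∈ W) ∧
    ¬ ∀ k ∈ K, ∀ x ∈ W, k • x = x}
  have hfinS : Finite (AddSubgroup V) := Finite.of_injective (fun W : AddSubgroup V => (W : Set V)) SetLike.coe_injective
  have hSne : S.Nonempty := by
    refine ⟨⊤, fun _ _ _ _ => trivial, fun _ _ _ _ => trivial, ?_⟩
    intro h
    apply CfsgLib.Comp.component_ne_bot hK
    rw [eq_bot_iff]
    intro k hk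
    rw [mem_bot]
    exact hfaith k (fun v => h k hk v trivial)
  obtain ⟨W, ⟨hW1, hW2, hW3⟩, hmin⟩ := Set.exists_min_image S (fun W => Nat.card W) (Set.toFinite _) hSne
  have hWH := stable_sup hW1 hW2
  letI instH : DistribMulAction (A ⊔ K : Subgroup G) W :=
    { smul := fun h w => ⟨(h : G) • (w : V), hWH h h.2 w w.2⟩
      one_smul := fun x => Subtype.ext (one_smul G (x : V))
      mul_smul := fun g h x => Subtype.ext (mul_smul (g : G) (h : G) (x : V))
      smul_zero := fun g => Subtype.ext (smul_zero (g : G))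
      smul_add := fun g x y => Subtype.ext (smul_add (g : G) (x : V) (y : V)) }
  letI instR := rangeAct (A ⊔ K : Subgroup G) W
  have hfaith' : FaithfulSMul (MulAction.toPermHom (A ⊔ K : Subgroup G) W).range W := by
    refine ⟨?_⟩
    intro g h hgh
    apply Subtype.ext
    exact Equiv.ext hgh
  exact pgv_aux hV hcomm hexp hoff hK.2 hdich ha1 ha1N hW1 hW2 hW3
    (fun Y h1 h2 h3 => hmin Y ⟨h1, h2, h3⟩)
    (MulAction.toPermHom (A ⊔ K : Subgroup G) W).rangeRestrict (MonoidHom.rangeRestrict_surjective _)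
    (fun h w => rfl)

end CfsgLib.LE11PGV
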