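import Cfsg.Agent.LibLEPm
import Cfsg.Agent.LibComp3

set_option autoImplicit false

/-! `p`-minimal groups, II (helper10). -/

open Cfsg Subgroup
open scoped Pointwise

namespace CfsgLib.LE

variable {G : Type*} [Group G] {p : ℕ}

/-- coprime action of a `p`-group `S` on a `p'`-group `R`: either some invariant Sylow subgroup `Q` has `Q ⊔ S ≰ M`
or `R ≤ M`, when ... -/
theorem exists_invariant_not_le [Finite G] [hp : Fact p.Prime] {S R M : Subgroup G} (hS : IsPGroup p ↥S)
    (hSR : S ≤ normalizer (R : Set G)) (hR : (Nat.card ↥R).Coprime p) (hRM : ¬ R ≤ M) :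
    ∃ q : ℕ, q.Prime ∧ q ≠ p ∧ ∃ Q : Subgroup G, Q ≤ R ∧ IsPGroup q ↥Q ∧ S ≤ normalizer (Q : Set G) ∧ ¬ Q ≤ M := by
  by_contra hcon
  push Not at hcon
  apply hRM
  have hcop : (Nat.card ↥S).Coprime (Nat.card ↥R) := by
    obtain ⟨k, hk⟩ := IsPGroup.iff_card.1 hS
    rw [hk]
    exact Nat.Coprime.pow_left _ hR.symm
  have hdvd : Nat.card ↥R ∣ Nat.card ↥(R ⊓ M) := by
    rw [← Nat.factorization_prime_le_iff_dvd Nat.card_pos.ne' Nat.card_pos.ne']
    intro q hq
    haveI : Fact q.Prime := ⟨hq⟩
    by_cases hqR : q ∣ Nat.card ↥R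
    · have hqp : q ≠ p := by
        rintro rfl
        exact (coprime_iff_not_dvd'.1 hR) hqR
      obtain ⟨Q, hQ⟩ := CfsgLib.Coprime.exists_invariant_sylow hSR hcop (Or.inl (isSolvable_of_isPGroup hS)) q
      have h1 := hcon q hq hqp ((Q : Subgroup ↥R).map R.subtype) (Subgroup.map_subtype_le _) (Q.2.map _) hQ
      have h2 : Nat.card ↥((Q : Subgroup ↥R).map R.subtype) ∣ Nat.card ↥(R ⊓ M) :=
        Subgroup.card_dvd_of_le (le_inf (Subgroup.map_subtype_le _) h1)
      rw [Subgroup.card_map_of_injective (Subgroup.subtype_injective _), Q.card_eq_multiplicity] at h2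
      exact (hq.pow_dvd_iff_le_factorization Nat.card_pos.ne').1 h2
    · rw [Nat.factorization_eq_zero_of_not_dvd hqR]; exact Nat.zero_le _
  have h1 : R ⊓ M = R := Subgroup.eq_of_le_of_card_ge inf_le_left (Nat.le_of_dvd Nat.card_pos hdvd)
  rw [← h1]; exact inf_le_right

section

variable [Finite G] [hp : Fact p.Prime] {S : Sylow p G} {M : Subgroup G}

theorem PMin.two_primes (h : PMin p S M) {T : Subgroup G} (hTn : T.Normal) (hTS : T ≤ (S : Subgroup G))
    (hTR : IsSyl p T (pResidual p G)) : (Nat.card G).primeFactors.card ≤ 2 := by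
  haveI := hTn
  set π := QuotientGroup.mk' T with hπ
  have hsurj : Function.Surjective π := QuotientGroup.mk'_surjective T
  have hker : π.ker = T := QuotientGroup.ker_mk' T
  set R := pResidual p G with hR
  have hTR' : T ≤ R := hTR.le
  have hcR : (Nat.card ↥(R.map π)).Coprime p := by
    rw [coprime_iff_not_dvd']
    intro hd
    apply hTR.not_dvd_relIndex
    have h1 : T.relIndex R = Nat.card ↥(R.map π) := by
      have h2 : (π.comp R.subtype).ker = T.subgroupOf R := by
        rw [← MonoidHom.comap_ker, hker]; rfl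
      rw [Subgroup.relIndex, ← h2, Subgroup.index_ker, MonoidHom.range_comp, Subgroup.range_subtype]
    rw [h1]; exact hd
  have hnR : (S : Subgroup G).map π ≤ normalizer (R.map π : Set (G ⧸ T)) := by
    haveI : (R.map π).Normal := Subgroup.Normal.map inferInstance π hsurj
    rw [Subgroup.normalizer_eq_top (R.map π)]; exact le_top
  have hRM : ¬ R.map π ≤ M.map π := by
    intro h1
    apply h.not_res_le
    rw [Subgroup.map_le_iff_le_comap, Subgroup.comap_map_eq, hker, sup_eq_left.2 (hTS.trans h.le)] at h1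
    exact h1
  obtain ⟨q, hq, hqp, Q, hQR, hQq, hSQ, hQM⟩ := exists_invariant_not_le (S.2.map π) hnR hcR hRM
  have htop : (Q ⊔ (S : Subgroup G).map π).comap π = ⊤ := by
    by_contra hne
    apply hQM
    have h1 := h.max _ (by rw [← Subgroup.map_le_iff_le_comap]; exact le_sup_right) hne
    have h2 := Subgroup.map_mono (f := π) h1
    rw [Subgroup.map_comap_eq_self_of_surjective hsurj] at h2
    exact le_sup_left.trans h2
  have htop' : Q ⊔ (S : Subgroup G).map π = ⊤ := by
    rw [← Subgroup.map_comap_eq_self_of_surjective hsurj (Q ⊔ (S : Subgroup G).map π), htop,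
      Subgroup.map_top_of_surjective _ hsurj]
  have hcard : Nat.card (G ⧸ T) ∣ Nat.card ↥Q * Nat.card ↥((S : Subgroup G).map π) := by
    have h1 := card_sup_mul_card_inf (H := (S : Subgroup G).map π) (K := Q) hSQ
    rw [sup_comm, htop', Subgroup.card_top] at h1
    rw [mul_comm (Nat.card ↥Q), ← h1]
    exact Dvd.intro _ rfl
  haveI : Fact q.Prime := ⟨hq⟩
  obtain ⟨a, ha⟩ := IsPGroup.iff_card.1 hQq
  obtain ⟨b, hb⟩ := IsPGroup.iff_card.1 (S.2.map π)
  obtain ⟨c, hc⟩ := IsPGroup.iff_card.1 hTR.isPGroup
  have hcardG : Nat.card G ∣ q ^ a * p ^ b * p ^ c := by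
    rw [Subgroup.card_eq_card_quotient_mul_card_subgroup T]
    rw [hc]
    apply Nat.mul_dvd_mul_right
    rw [← ha, ← hb]; exact hcard
  have hsub : (Nat.card G).primeFactors ⊆ {q, p} := by
    intro ℓ hℓ
    have h1 := Nat.prime_of_mem_primeFactors hℓ
    have h2 := (Nat.dvd_of_mem_primeFactors hℓ).trans hcardG
    rw [Finset.mem_insert, Finset.mem_singleton]
    rcases (Nat.Prime.dvd_mul h1).1 h2 with h3 | h3
    · rcases (Nat.Prime.dvd_mul h1).1 h3 with h4 | h4
      · left; exact (Nat.prime_dvd_prime_iff_eq h1 hq).1 (h1.dvd_of_dvd_pow h4)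
      · right; exact (Nat.prime_dvd_prime_iff_eq h1 hp.out).1 (h1.dvd_of_dvd_pow h4)
    · right; exact (Nat.prime_dvd_prime_iff_eq h1 hp.out).1 (h1.dvd_of_dvd_pow h3)
  exact (Finset.card_le_card hsub).trans Finset.card_le_two

theorem PMin.coprime_of_normal_le (h : PMin p S M) (hO : pCore p G = ⊥) {N : Subgroup G} (hN : N.Normal) (hNM : N ≤ M) :
    (Nat.card ↥N).Coprime p := by
  rw [coprime_iff_not_dvd']
  intro hd
  have h1 := (sylow_inf_normal' S N).ne_bot hd
  apply h1
  rw [eq_bot_iff, ← hO, inf_comm]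
  exact h.normal_inf_le hN hNM

theorem PMin.nilpotent_of_normal_le (h : PMin p S M) (hO : pCore p G = ⊥) {N : Subgroup G} (hN : N.Normal) (hNM : N ≤ M) :
    Group.IsNilpotent ↥N := by
  have hcop := h.coprime_of_normal_le hO hN hNM
  have hSN : (S : Subgroup G) ≤ normalizer (N : Set G) := by rw [Subgroup.normalizer_eq_top N]; exact le_top
  have hcop' : (Nat.card ↥(S : Subgroup G)).Coprime (Nat.card ↥N) := by
    obtain ⟨k, hk⟩ := IsPGroup.iff_card.1 S.2
    rw [hk]
    exact Nat.Coprime.pow_left _ hcop.symm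
  have htfae := (Group.isNilpotent_of_finite_tfae (G := ↥N)).out 0 3
  rw [htfae]
  intro q hq Q'
  obtain ⟨Q, hQ⟩ := CfsgLib.Coprime.exists_invariant_sylow hSN hcop' (Or.inl (isSolvable_of_isPGroup S.2)) q
  have h1 : IsSyl q ((Q : Subgroup ↥N).map N.subtype) N := ⟨Q, rfl⟩
  have h2 := h.normal_of_frattini hN hNM h1 hQ
  have h3 : (Q : Subgroup ↥N).Normal := by
    have h4 : ((((Q : Subgroup ↥N).map N.subtype)).subgroupOf N).Normal := inferInstance
    rwa [subgroupOf_map_subtype'] at h4
  obtain ⟨g, hg⟩ := MulAction.exists_smul_eq ↥N Q Q'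
  have h4 : (Q' : Subgroup ↥N) = (Q : Subgroup ↥N).map (MulAut.conj g).toMonoidHom := by rw [← hg]; rfl
  rw [h4, map_conj_of_normal (Q : Subgroup ↥N) g]
  exact h3

theorem layer_le_pResidual : layer G ≤ pResidual p G := by
  set R := pResidual p G with hR
  set π := QuotientGroup.mk' R with hπ
  have h1 : IsPGroup p ↥((layer G).map π) := by
    have h2 : IsPGroup p (G ⧸ R) := isPGroup_quotient_pResidual
    exact h2.to_subgroup _
  have h2 : (layer G).map π = ⊥ := by
    by_contra hne
    have h3 := commutator_lt_of_isPGroup h1 h1 Subgroup.le_normalizer hne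
    rw [← Subgroup.map_commutator, CfsgLib.Comp.commutator_layer] at h3
    exact lt_irrefl _ h3
  rw [Subgroup.map_eq_bot_iff, QuotientGroup.ker_mk'] at h2
  exact h2

theorem fitting_le_pResidual (hO : pCore p G = ⊥) : fittingSubgroup G ≤ pResidual p G := by
  rw [CfsgLib.Cores.fittingSubgroup_eq_iSup_pCore]
  refine iSup_le fun ⟨q, hq⟩ => ?_
  change pCore q G ≤ pResidual p G
  by_cases hqp : q = p
  · rw [hqp, hO]; exact bot_le
  · intro x hx
    apply mem_pResidual_of_coprime
    haveI : Fact q.Prime := ⟨hq⟩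
    obtain ⟨k, hk⟩ := (isPGroup_iff_orderOf_pow.1 (pCore_isPGroup q G)) x hx
    rw [hk]
    exact Nat.Coprime.pow_left _ ((Nat.coprime_primes hq hp.out).2 hqp)

theorem isComponent_map_conj {K : Subgroup G} (hK : IsComponent K) (g : G) :
    IsComponent (K.map (MulAut.conj g).toMonoidHom) := by
  exact CfsgLib.Comp.isComponent_map_equiv (MulAut.conj g) hK

/-- structure of `p`-minimal groups with a component -/
theorem PMin.component (h : PMin p S M) (hO : pCore p G = ⊥) {K : Subgroup G} (hK : IsComponent K) :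
    pResidual p G = layer G ∧ layer G = normalClosure (K : Set G) ∧
      layer G = ⨆ s : ↥(S : Subgroup G), K.map (MulAut.conj (s : G)).toMonoidHom ∧
      generalizedFittingSubgroup G = layer G ∧ p ∣ Nat.card ↥K := by
  have hKnil : ¬ Group.IsNilpotent ↥K := by
    intro hn
    exact CfsgLib.Comp.quasisimple_not_solvable hK.2 inferInstance
  have hncK : normalClosure (K : Set G) ≤ layer G :=
    Subgroup.normalClosure_le_normal (CfsgLib.Comp.component_le_layer hK)
  have hnM : ¬ normalClosure (K : Set G) ≤ M := by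
    intro h1
    have h2 := h.nilpotent_of_normal_le hO Subgroup.normalClosure_normal h1
    apply hKnil
    have h3 : Group.IsNilpotent ↥(K.subgroupOf (normalClosure (K : Set G))) := inferInstance
    have hle : K ≤ normalClosure (K : Set G) := Subgroup.le_normalClosure
    let e := Subgroup.subgroupOfEquivOfLe hle
    have h4 : Function.Surjective e.toMonoidHom := e.surjective
    exact Group.nilpotent_of_surjective (h := h3) e.toMonoidHom h4
  have hres := (h.normal_dichotomy (Subgroup.normalClosure_normal (s := (K : Set G)))).resolve_right hnM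
  have e1 : pResidual p G = layer G := le_antisymm (hres.trans hncK) layer_le_pResidual
  have e2 : layer G = normalClosure (K : Set G) := le_antisymm (e1 ▸ hres) hncK
  have e3 : layer G = ⨆ s : ↥(S : Subgroup G), K.map (MulAut.conj (s : G)).toMonoidHom := by
    apply le_antisymm
    · set J : Subgroup G := ⨆ s : ↥(S : Subgroup G), K.map (MulAut.conj (s : G)).toMonoidHom with hJ
      have hJn : J.Normal := by
        rw [← Subgroup.normalizer_eq_top_iff, eq_top_iff, ← pResidual_sup_sylow S, e1]
        apply sup_le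
        · intro x hx
          rw [mem_normalizer_iff_map_conj, hJ, Subgroup.map_iSup]
          apply iSup_congr
          intro s
          exact mem_normalizer_iff_map_conj.1 (CfsgLib.Comp.layer_le_normalizer_component (isComponent_map_conj hK s) hx)
        · intro t ht
          have hle : ∀ t ∈ (S : Subgroup G), J.map (MulAut.conj t).toMonoidHom ≤ J := by
            intro t ht
            rw [hJ, Subgroup.map_iSup]
            apply iSup_le
            intro s
            rw [map_conj_mul]
            exact le_iSup (fun s : ↥(S : Subgroup G) => K.map (MulAut.conj (s : G)).toMonoidHom) (⟨t, ht⟩ * s)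
          rw [mem_normalizer_iff_map_conj]
          apply le_antisymm (hle t ht)
          have h1 := Subgroup.map_mono (f := (MulAut.conj t).toMonoidHom) (hle t⁻¹ (Subgroup.inv_mem _ ht))
          rw [map_conj_mul, mul_inv_cancel, map_conj_one] at h1
          exact h1
      rw [e2]
      apply Subgroup.normalClosure_le_normal
      have := le_iSup (fun s : ↥(S : Subgroup G) => K.map (MulAut.conj (s : G)).toMonoidHom) 1
      simp only [Subgroup.coe_one, map_conj_one] at this
      exact this
    · apply iSup_le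
      intro s
      exact CfsgLib.Comp.component_le_layer (isComponent_map_conj hK s)
  have e4 : generalizedFittingSubgroup G = layer G := by
    apply le_antisymm
    · apply sup_le le_rfl
      rw [← e1]; exact fitting_le_pResidual hO
    · exact le_sup_left
  refine ⟨e1, e2, e3, e4, ?_⟩
  by_contra hpK
  have h1 := CfsgLib.Comp.le_pPrimeCore_of_subnormal hK.1 (coprime_iff_not_dvd'.2 hpK)
  have h2 : layer G ≤ pPrimeCore p G := by
    rw [e2]; exact Subgroup.normalClosure_le_normal h1
  have h3 : (Nat.card ↥(layer G)).Coprime p := coprime_card_of_le h2 (coprime_card_pPrimeCore p G)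
  have h4 : ¬ layer G ≤ M := by rw [← e1]; exact h.not_res_le
  have hSn : (S : Subgroup G) ≤ normalizer (layer G : Set G) := by
    rw [Subgroup.normalizer_eq_top (layer G)]; exact le_top
  obtain ⟨q, hq, hqp, Q, hQR, hQq, hSQ, hQM⟩ := exists_invariant_not_le S.2 hSn h3 h4
  have htop : Q ⊔ (S : Subgroup G) = ⊤ := by
    by_contra hne
    exact hQM (le_sup_left.trans (h.max _ le_sup_right hne))
  -- hence the layer is `Q`
  have h5 : layer G = Q := by
    symm
    apply Subgroup.eq_of_le_of_card_ge hQR
    have h6 := card_sup_mul_card_inf (H := (S : Subgroup G)) (K := Q) hSQ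
    have h7 := card_sup_mul_card_inf (H := (S : Subgroup G)) (K := layer G) hSn
    rw [sup_comm, htop] at h6
    have h8 : (S : Subgroup G) ⊔ layer G = ⊤ := by rw [sup_comm, ← e1]; exact pResidual_sup_sylow S
    rw [h8] at h7
    have h9 : (S : Subgroup G) ⊓ layer G = ⊥ := by
      rw [eq_bot_iff]
      intro x hx
      have h10 : (orderOf x).Coprime p := by
        have h11 : orderOf x ∣ Nat.card ↥(layer G) := by
          have := orderOf_dvd_natCard (⟨x, hx.2⟩ : ↥(layer G))
          rwa [← Subgroup.orderOf_coe] at this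
        exact Nat.Coprime.coprime_dvd_left h11 h3
      exact eq_one_of_coprime_of_isPGroup S.2 hx.1 h10
    have h10 : (S : Subgroup G) ⊓ Q = ⊥ := by
      rw [eq_bot_iff, ← h9]; exact inf_le_inf_left _ hQR
    rw [h9, Subgroup.card_bot, mul_one] at h7
    rw [h10, Subgroup.card_bot, mul_one] at h6
    have h11 : Nat.card ↥(S : Subgroup G) * Nat.card ↥Q = Nat.card ↥(S : Subgroup G) * Nat.card ↥(layer G) := by
      rw [← h6, ← h7]
    exact (Nat.eq_of_mul_eq_mul_left Nat.card_pos h11).ge
  apply hKnil
  haveI : Fact q.Prime := ⟨hq⟩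
  have h6 : IsPGroup q ↥K := hQq.to_le (by rw [← h5]; exact CfsgLib.Comp.component_le_layer hK)
  exact h6.isNilpotent

theorem PMin.component_minimal (h : PMin p S M) (hO : pCore p G = ⊥) {K : Subgroup G} (hK : IsComponent K) :
    IsPMinimal p ↥(K ⊔ ((S : Subgroup G) ⊓ normalizer (K : Set G))) := by
  obtain ⟨e1, e2, e3, e4, hpK⟩ := h.component hO hK
  set T := (S : Subgroup G) ⊓ normalizer (K : Set G) with hT
  have hTK : T ≤ normalizer (K : Set G) := inf_le_right
  have hTp : IsPGroup p ↥T := S.2.to_le inf_le_left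
  have hSK : IsSyl p ((S : Subgroup G) ⊓ K) K := isSyl_inf_of_isSubnormal S hK.1
  have hTKS : T ⊓ K = (S : Subgroup G) ⊓ K := by
    apply le_antisymm
    · exact inf_le_inf_right _ inf_le_left
    · exact le_inf (le_inf inf_le_left (inf_le_right.trans Subgroup.le_normalizer)) inf_le_right
  have hKM : ¬ K ≤ M := by
    intro h1
    apply h.not_res_le
    rw [e1, e3]
    apply iSup_le
    intro s
    refine (Subgroup.map_mono h1).trans ?_
    rw [mem_normalizer_iff_map_conj.1 (Subgroup.le_normalizer (h.le s.2))]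
  apply isPMinimal_of_ambient (T := T) (M := (M ⊓ K) ⊔ T)
  · -- Sylow
    apply isSyl_of_not_dvd le_sup_right hTp
    have h1 := card_sup_mul_card_inf hTK
    have h2 := card_mul_relIndex (le_sup_right : T ≤ K ⊔ T)
    have h3 := card_mul_relIndex hSK.le
    rw [sup_comm] at h1
    rw [hTKS, ← h2, ← h3] at h1
    have h4 : T.relIndex (K ⊔ T) = ((S : Subgroup G) ⊓ K).relIndex K := by
      have hpos : 0 < Nat.card ↥T * Nat.card ↥((S : Subgroup G) ⊓ K) := Nat.mul_pos Nat.card_pos Nat.card_pos
      apply Nat.eq_of_mul_eq_mul_left hpos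
      calc Nat.card ↥T * Nat.card ↥((S : Subgroup G) ⊓ K) * T.relIndex (K ⊔ T)
          = Nat.card ↥T * T.relIndex (K ⊔ T) * Nat.card ↥((S : Subgroup G) ⊓ K) := by ring
        _ = Nat.card ↥T * (Nat.card ↥((S : Subgroup G) ⊓ K) * ((S : Subgroup G) ⊓ K).relIndex K) := h1
        _ = _ := by ring
    rw [h4]
    exact hSK.not_dvd_relIndex
  · intro h1
    have h2 : K ≤ normalizer (((S : Subgroup G) ⊓ K : Subgroup G) : Set G) := by
      rw [← hTKS]
      exact le_normalizer_inf (le_sup_left.trans h1) Subgroup.le_normalizer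
    have h3 : (S : Subgroup G) ⊓ K ≤ pCoreOf p K := le_pCoreOf inf_le_right h2 hSK.isPGroup
    have h4 := h3.trans (pCoreOf_le_pCore_of_isSubnormal hK.1)
    rw [hO, le_bot_iff] at h4
    exact hSK.ne_bot hpK h4
  · refine lt_of_le_of_ne (sup_le_sup_right inf_le_right _) ?_
    intro h1
    apply hKM
    have h2 : K ≤ (M ⊓ K) ⊔ T := by rw [h1]; exact le_sup_left
    exact h2.trans (sup_le inf_le_left (inf_le_left.trans h.le))
  · exact le_sup_right
  · intro Y hTY hYX
    set L₀ := Y ⊓ K with hL₀
    have hL₀K : L₀ ≤ K := inf_le_right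
    have hL₀ne : ¬ K ≤ L₀ := by
      intro h1
      exact hYX.not_ge (sup_le (h1.trans inf_le_left) hTY)
    have hTL₀ : T ≤ normalizer (L₀ : Set G) := le_normalizer_inf (hTY.trans Subgroup.le_normalizer) hTK
    have hYeq : Y = L₀ ⊔ T := by
      have h1 := sup_inf_of_le_normalizer' (A := T) (B := K) (C := Y) hTY hTK
      rw [sup_comm T K, inf_eq_right.2 hYX.le] at h1
      rw [hL₀, inf_comm Y K, sup_comm]; exact h1.symm
    set J : Subgroup G := ⨆ s : ↥(S : Subgroup G), L₀.map (MulAut.conj (s : G)).toMonoidHom with hJ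
    have hJle : ∀ t ∈ (S : Subgroup G), J.map (MulAut.conj t).toMonoidHom ≤ J := by
      intro t ht
      rw [hJ, Subgroup.map_iSup]
      apply iSup_le
      intro s
      rw [map_conj_mul]
      exact le_iSup (fun s : ↥(S : Subgroup G) => L₀.map (MulAut.conj (s : G)).toMonoidHom) (⟨t, ht⟩ * s)
    have hSJ : (S : Subgroup G) ≤ normalizer (J : Set G) := by
      intro t ht
      rw [mem_normalizer_iff_map_conj]
      apply le_antisymm (hJle t ht)
      have h1 := Subgroup.map_mono (f := (MulAut.conj t).toMonoidHom) (hJle t⁻¹ (Subgroup.inv_mem _ ht))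
      rw [map_conj_mul, mul_inv_cancel, map_conj_one] at h1
      exact h1
    have hL₀J : L₀ ≤ J := by
      have := le_iSup (fun s : ↥(S : Subgroup G) => L₀.map (MulAut.conj (s : G)).toMonoidHom) 1
      simp only [Subgroup.coe_one, map_conj_one] at this
      exact this
    have hne : J ⊔ (S : Subgroup G) ≠ ⊤ := by
      intro htop
      have hJn : J.Normal := by
        rw [← Subgroup.normalizer_eq_top_iff, eq_top_iff, ← htop]
        exact sup_le Subgroup.le_normalizer hSJ
      have h1 : ¬ J ≤ M := by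
        intro h1
        apply h.co.1
        rw [eq_top_iff, ← htop]
        exact sup_le h1 h.le
      have h2 := (h.normal_dichotomy hJn).resolve_right h1
      have hKJ : K ≤ J := (CfsgLib.Comp.component_le_layer hK).trans (e1 ▸ h2)
      have hJC : J ≤ L₀ ⊔ centralizer (K : Set G) := by
        rw [hJ]
        apply iSup_le
        intro s
        by_cases hs : (s : G) ∈ normalizer (K : Set G)
        · rw [mem_normalizer_iff_map_conj.1 (hTL₀ (Subgroup.mem_inf.2 ⟨s.2, hs⟩))]
          exact le_sup_left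
        · have h3 : K.map (MulAut.conj (s : G)).toMonoidHom ≠ K := fun h => hs (mem_normalizer_iff_map_conj.2 h)
          have h4 := CfsgLib.Comp.components_commute (isComponent_map_conj hK (s : G)) hK h3
          rw [Subgroup.commutator_eq_bot_iff_le_centralizer] at h4
          exact ((Subgroup.map_mono hL₀K).trans h4).trans le_sup_right
      have hKeq : K ≤ L₀ ⊔ (centralizer (K : Set G) ⊓ K) := by
        rw [sup_inf_of_le_normalizer' hL₀K (le_normalizer_centralizer (hL₀K.trans Subgroup.le_normalizer))]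
        exact le_inf (hKJ.trans hJC) le_rfl
      apply hL₀ne
      have h3 : ⁅K, K⁆ ≤ L₀ := by
        rw [Subgroup.commutator_le]
        intro x hx y hy
        have hn : centralizer (K : Set G) ⊓ K ≤ normalizer (L₀ : Set G) :=
          (inf_le_left.trans (Subgroup.centralizer_le hL₀K)).trans (Subgroup.centralizer_le_normalizer _)
        obtain ⟨l, hl, z, hz, rfl⟩ := (mem_sup_of_le_normalizer' hn).1 (hKeq hx)
        obtain ⟨l', hl', z', hz', rfl⟩ := (mem_sup_of_le_normalizer' hn).1 (hKeq hy)
        have hzc : ∀ k ∈ K, k * z = z * k := fun k hk => Subgroup.mem_centralizer_iff.1 hz.1 k hk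
        have hzc' : ∀ k ∈ K, k * z' = z' * k := fun k hk => Subgroup.mem_centralizer_iff.1 hz'.1 k hk
        have h5 : l * z * (l' * z') * (l * z)⁻¹ * (l' * z')⁻¹ = l * l' * l⁻¹ * l'⁻¹ := by
          have a1 := hzc (l' * z') hy
          have a2 := hzc' l (hL₀K hl)
          calc l * z * (l' * z') * (l * z)⁻¹ * (l' * z')⁻¹ = l * (z * (l' * z')) * z⁻¹ * l⁻¹ * (l' * z')⁻¹ := by group
            _ = l * ((l' * z') * z) * z⁻¹ * l⁻¹ * (l' * z')⁻¹ := by rw [a1]
            _ = l * l' * z' * l⁻¹ * z'⁻¹ * l'⁻¹ := by group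
            _ = l * l' * (l⁻¹ * (l * z')) * l⁻¹ * z'⁻¹ * l'⁻¹ := by group
            _ = l * l' * (l⁻¹ * (z' * l)) * l⁻¹ * z'⁻¹ * l'⁻¹ := by rw [a2]
            _ = l * l' * l⁻¹ * l'⁻¹ := by group
        rw [commutatorElement_def, h5]
        exact L₀.mul_mem (L₀.mul_mem (L₀.mul_mem hl hl') (L₀.inv_mem hl)) (L₀.inv_mem hl')
      rw [← CfsgLib.Comp.component_commutator_eq hK]
      exact h3
    have hL₀M : L₀ ≤ M := (hL₀J.trans le_sup_left).trans (h.max _ le_sup_right hne)
    rw [hYeq]
    exact sup_le_sup_right (le_inf hL₀M hL₀K) _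

end

end CfsgLib.LE
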