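import Mathlib
import Cfsg.Agent.LibExtraH28

set_option autoImplicit false

/-! Extraspecial 2-subgroups `Q` of a finite group `G` with centre `{1,z}`; the large ones. (helper28) -/

namespace CfsgLib.LargeExtraH28

open Subgroup
open scoped IsMulCommutative

variable {G : Type*} [Group G]

/-- `Q` is an extraspecial 2-subgroup with centre `{1, z}`, recorded through elementwise facts. -/
structure ESet (Q : Subgroup G) (z : G) : Prop where
  zQ : z ∈ Q
  z1 : z ≠ 1
  zz : z * z = 1
  zc : ∀ q ∈ Q, q * z = z * q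
  sq : ∀ q ∈ Q, q * q = 1 ∨ q * q = z
  cm : ∀ q ∈ Q, ∀ r ∈ Q, q * r = r * q ∨ q * r = z * (r * q)
  dc : ∀ W : Subgroup G, z ∈ W → W ≤ Q → ∀ v ∈ Q, v ∉ W →
    ∃ e ∈ Q, (∀ w ∈ W, e * w = w * e) ∧ e * v = z * (v * e)
  inn : ∀ c : G, (∀ q ∈ Q, c * q = q * c ∨ c * q = z * (q * c)) →
    ∃ e ∈ Q, ∀ q ∈ Q, c * q * c⁻¹ = e * q * e⁻¹

theorem center_map_eq {Q : Subgroup G} (hE : Cfsg.IsExtraspecial 2 Q) {z : G} (hzQ : z ∈ Q)
    (hz1 : z ≠ 1) (hzc : ∀ q ∈ Q, q * z = z * q) :
    ∀ x : Q, x ∈ center Q ↔ (x : G) = 1 ∨ (x : G) = z := by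
  have h2 : Nat.card (center Q) = 2 := hE.2
  have hz : (⟨z, hzQ⟩ : Q) ∈ center Q := by
    rw [Subgroup.mem_center_iff]
    intro g
    exact Subtype.ext (hzc g g.2)
  intro x
  constructor
  · intro hx
    by_contra h
    push Not at h
    obtain ⟨y, hy1, hy⟩ := (Nat.card_eq_two_iff' (1 : center Q)).mp h2
    have e1 := hy ⟨⟨z, hzQ⟩, hz⟩ (by
      intro h'; exact hz1 (congrArg (fun t : center Q => ((t : Q) : G)) h'))
    have e2 := hy ⟨x, hx⟩ (by
      intro h'; exact h.1 (congrArg (fun t : center Q => ((t : Q) : G)) h'))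
    exact h.2 (congrArg (fun t : center Q => ((t : Q) : G)) (e2.trans e1.symm))
  · rintro (h | h)
    · have : x = 1 := Subtype.ext h
      rw [this]; exact one_mem _
    · have : x = ⟨z, hzQ⟩ := Subtype.ext h
      rw [this]; exact hz

theorem ESet.of_extraspecial [Finite G] {Q : Subgroup G} (hE : Cfsg.IsExtraspecial 2 Q) {z : G}
    (hzQ : z ∈ Q) (hz1 : z ≠ 1) (hzc : ∀ q ∈ Q, q * z = z * q) : ESet Q z := by
  have hc := center_map_eq hE hzQ hz1 hzc
  haveI : Fact (Nat.Prime 2) := ⟨Nat.prime_two⟩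
  have hcm : ∀ q ∈ Q, ∀ r ∈ Q, q * r = r * q ∨ q * r = z * (r * q) := by
    intro q hq r hr
    rcases (hc _).mp (ExtraH28.comm_mem_center hE ⟨q, hq⟩ ⟨r, hr⟩) with h | h
    · left
      exact ExtraH28.comm_eq_one_iff.mp (by simpa using h)
    · right
      have h1 : q * r * q⁻¹ * r⁻¹ = z := by simpa using h
      rw [← h1]; group
  refine ⟨hzQ, hz1, ?_, hzc, ?_, hcm, ?_, ?_⟩
  · rcases (hc _).mp (ExtraH28.pow_mem_center hE ⟨z, hzQ⟩) with h | h
    · simpa [pow_two] using h
    · have : z * z = z := by simpa [pow_two] using h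
      exact absurd (mul_eq_left.mp this) hz1
  · intro q hq
    rcases (hc _).mp (ExtraH28.pow_mem_center hE ⟨q, hq⟩) with h | h
    · left; simpa [pow_two] using h
    · right; simpa [pow_two] using h
  · intro W hzW hWQ v hv hvW
    have hA : center Q ≤ W.subgroupOf Q := by
      intro x hx
      rw [mem_subgroupOf]
      rcases (hc x).mp hx with h | h
      · rw [h]; exact one_mem _
      · rw [h]; exact hzW
    have h1 := ExtraH28.centralizer_centralizer hE (W.subgroupOf Q) hA
    have h2 : (⟨v, hv⟩ : Q) ∉ centralizer ((centralizer ((W.subgroupOf Q : Subgroup Q) : Set Q) :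
        Subgroup Q) : Set Q) := by
      rw [h1, mem_subgroupOf]; exact hvW
    rw [Subgroup.mem_centralizer_iff] at h2
    push Not at h2
    obtain ⟨e, he, hev⟩ := h2
    refine ⟨e, e.2, ?_, ?_⟩
    · intro w hw
      have h3 := (Subgroup.mem_centralizer_iff.mp he) ⟨w, hWQ hw⟩ (by
        rw [SetLike.mem_coe, mem_subgroupOf]; exact hw)
      have := congrArg (Subtype.val) h3
      simpa using this.symm
    · rcases hcm e e.2 v hv with h | h
      · exact absurd (Subtype.ext h) hev
      · exact h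
  · intro c hcQ
    have hnorm : ∀ q ∈ Q, c * q * c⁻¹ ∈ Q := by
      intro q hq
      rcases hcQ q hq with h | h
      · have : c * q * c⁻¹ = q := by rw [h]; group
        rw [this]; exact hq
      · have : c * q * c⁻¹ = z * q := by rw [h]; group
        rw [this]; exact mul_mem hzQ hq
    let φ : Q →* Q := MonoidHom.mk' (fun q => ⟨c * q * c⁻¹, hnorm q q.2⟩) (by
      intro a b; apply Subtype.ext; simp)
    have hφ : ∀ q : Q, φ q * q⁻¹ ∈ center Q := by
      intro q
      rw [hc]
      have h0 : ((φ q * q⁻¹ : Q) : G) = c * q * c⁻¹ * (q : G)⁻¹ := rfl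
      rw [h0]
      rcases hcQ q q.2 with h | h
      · left; rw [h]; group
      · right; rw [h]; group
    obtain ⟨e, he⟩ := ExtraH28.inner_of_trivial_mod_center hE φ hφ
    refine ⟨e, e.2, fun q hq => ?_⟩
    have := congrArg Subtype.val (he ⟨q, hq⟩)
    exact this

/-- A version with the centre given as `zpowers z`. -/
theorem ESet.of_center [Finite G] {Q : Subgroup G} (hE : Cfsg.IsExtraspecial 2 Q) {z : G}
    (hz : (center Q).map Q.subtype = zpowers z) : ESet Q z := by
  have hzm : z ∈ (center Q).map Q.subtype := by rw [hz]; exact mem_zpowers z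
  obtain ⟨y, hy, rfl⟩ := hzm
  refine ESet.of_extraspecial hE y.2 ?_ ?_
  · intro h
    have h1 : Q.subtype y = 1 := h
    rw [h1, zpowers_one_eq_bot] at hz
    have h2 : center Q = ⊥ := by
      rw [← Subgroup.map_eq_bot_iff_of_injective _ Q.subtype_injective]; exact hz
    have h3 := hE.2
    rw [h2] at h3
    simp at h3
  · intro q hq
    have := (Subgroup.mem_center_iff.mp hy) ⟨q, hq⟩
    exact congrArg Subtype.val this

theorem exists_center_gen {Q : Subgroup G} (hE : Cfsg.IsExtraspecial 2 Q) :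
    ∃ z, z ∈ Q ∧ z ≠ 1 ∧ (∀ q ∈ Q, q * z = z * q) ∧ (center Q).map Q.subtype = zpowers z := by
  have h2 : Nat.card (center Q) = 2 := hE.2
  haveI : Finite (center Q) := Nat.finite_of_card_ne_zero (by rw [h2]; norm_num)
  haveI : Nontrivial (center Q) := Finite.one_lt_card_iff_nontrivial.mp (by rw [h2]; norm_num)
  obtain ⟨⟨⟨z, hzQ⟩, hz⟩, hne⟩ := exists_ne (1 : center Q)
  have hz1 : z ≠ 1 := by
    intro h; apply hne; apply Subtype.ext; apply Subtype.ext; exact h
  have hzc : ∀ q ∈ Q, q * z = z * q := fun q hq =>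
    congrArg Subtype.val ((Subgroup.mem_center_iff.mp hz) ⟨q, hq⟩)
  refine ⟨z, hzQ, hz1, hzc, ?_⟩
  have hc := center_map_eq hE hzQ hz1 hzc
  ext x
  constructor
  · rintro ⟨y, hy, rfl⟩
    rcases (hc y).mp hy with h | h
    · show (y : G) ∈ _
      rw [h]; exact one_mem _
    · show (y : G) ∈ _
      rw [h]; exact mem_zpowers z
  · rintro ⟨n, rfl⟩
    exact ⟨(⟨z, hzQ⟩ : Q) ^ n, zpow_mem hz n, rfl⟩

theorem ESet.mem_zpowers {Q : Subgroup G} {z : G} (h : ESet Q z) {x : G} :
    x ∈ zpowers z ↔ x = 1 ∨ x = z := by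
  constructor
  · rintro ⟨n, rfl⟩
    rcases Int.even_or_odd n with ⟨k, rfl⟩ | ⟨k, rfl⟩
    · left
      show z ^ (k + k) = 1
      rw [← two_mul, zpow_mul, zpow_two, h.zz, one_zpow]
    · right
      show z ^ (2 * k + 1) = z
      rw [zpow_add, zpow_one, zpow_mul, zpow_two, h.zz, one_zpow, one_mul]
  · rintro (rfl | rfl)
    · exact one_mem _
    · exact Subgroup.mem_zpowers _

theorem four_mul {z x a b : G} (zz : z * z = 1) (xz : x * z = z * x) (xx : x * x = 1 ∨ x * x = z)
    (ha : a = 1 ∨ a = z ∨ a = x ∨ a = z * x) (hb : b = 1 ∨ b = z ∨ b = x ∨ b = z * x) :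
    a * b = 1 ∨ a * b = z ∨ a * b = x ∨ a * b = z * x := by
  have zz' : ∀ t, z * (z * t) = t := fun t => by rw [← mul_assoc, zz, one_mul]
  have xz' : ∀ t, x * (z * t) = z * (x * t) := fun t => by rw [← mul_assoc, xz, mul_assoc]
  rcases xx with xx | xx
  · have xx' : ∀ t, x * (x * t) = t := fun t => by rw [← mul_assoc, xx, one_mul]
    rcases ha with rfl | rfl | rfl | rfl <;> rcases hb with rfl | rfl | rfl | rfl <;>
      simp [mul_assoc, xz, xz', zz, zz', xx, xx']
  · have xx' : ∀ t, x * (x * t) = z * t := fun t => by rw [← mul_assoc, xx]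
    rcases ha with rfl | rfl | rfl | rfl <;> rcases hb with rfl | rfl | rfl | rfl <;>
      simp [mul_assoc, xz, xz', zz, zz', xx, xx']

/-- The subgroup `{1, z, x, z x}`. -/
def four (z x : G) (zz : z * z = 1) (xz : x * z = z * x) (xx : x * x = 1 ∨ x * x = z) :
    Subgroup G where
  carrier := {a | a = 1 ∨ a = z ∨ a = x ∨ a = z * x}
  mul_mem' := fun ha hb => four_mul zz xz xx ha hb
  one_mem' := Or.inl rfl
  inv_mem' := by
    intro a ha
    have h1 : a⁻¹ = a * (a * a)⁻¹ := by group
    have h2 : (a * a = 1 ∨ a * a = z) := by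
      have zz' : ∀ t, z * (z * t) = t := fun t => by rw [← mul_assoc, zz, one_mul]
      have xz' : ∀ t, x * (z * t) = z * (x * t) := fun t => by rw [← mul_assoc, xz, mul_assoc]
      rcases ha with rfl | rfl | rfl | rfl
      · left; simp
      · left; exact zz
      · exact xx
      · rcases xx with h | h
        · left; simp [mul_assoc, xz', zz, zz', h]
        · right; simp [mul_assoc, xz', zz, zz', h]
    show a⁻¹ = 1 ∨ a⁻¹ = z ∨ a⁻¹ = x ∨ a⁻¹ = z * x
    rw [h1]
    rcases h2 with h | h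
    · rw [h]; simpa using ha
    · rw [h]
      have h3 : z⁻¹ = z := inv_eq_of_mul_eq_one_left zz
      rw [h3]
      exact four_mul zz xz xx ha (Or.inr (Or.inl rfl))

theorem closure_pair_le {z x : G} (zz : z * z = 1) (xz : x * z = z * x)
    (xx : x * x = 1 ∨ x * x = z) {a : G} (ha : a ∈ closure ({z, x} : Set G)) :
    a = 1 ∨ a = z ∨ a = x ∨ a = z * x := by
  have : closure ({z, x} : Set G) ≤ four z x zz xz xx := by
    rw [closure_le]
    rintro y (rfl | rfl)
    · exact Or.inr (Or.inl rfl)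
    · exact Or.inr (Or.inr (Or.inl rfl))
  exact this ha

theorem mem_closure_pair_iff {z x : G} (zz : z * z = 1) (xz : x * z = z * x)
    (xx : x * x = 1 ∨ x * x = z) {a : G} : a ∈ closure ({z, x} : Set G) ↔
    (a = 1 ∨ a = z ∨ a = x ∨ a = z * x) := by
  constructor
  · exact closure_pair_le zz xz xx
  · rintro (rfl | rfl | rfl | rfl)
    · exact one_mem _
    · exact subset_closure (by simp)
    · exact subset_closure (by simp)
    · exact mul_mem (subset_closure (by simp)) (subset_closure (by simp))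

namespace ESet

variable {Q : Subgroup G} {z : G}

theorem zinv (h : ESet Q z) : z⁻¹ = z := inv_eq_of_mul_eq_one_left h.zz

theorem zz' (h : ESet Q z) (t : G) : z * (z * t) = t := by rw [← mul_assoc, h.zz, one_mul]

theorem noncentral (h : ESet Q z) {x : G} (hx : x ∈ Q) (h1 : x ≠ 1) (hz : x ≠ z) :
    ∃ e ∈ Q, e * x = z * (x * e) := by
  obtain ⟨e, he, _, he2⟩ := h.dc (zpowers z) (Subgroup.mem_zpowers z)
    (by rw [zpowers_le]; exact h.zQ) x hx (by rw [h.mem_zpowers]; tauto)
  exact ⟨e, he, he2⟩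

/-- Duality for one element. -/
theorem dual (h : ESet Q z) {x w : G} (hx : x ∈ Q) (hw : w ∈ Q)
    (hxw : ∀ y ∈ Q, y * x = x * y → y * w = w * y) : w = 1 ∨ w = z ∨ w = x ∨ w = z * x := by
  by_contra hcon
  have hxz := h.zc x hx
  obtain ⟨e, he, he1, he2⟩ := h.dc (closure ({z, x} : Set G)) (subset_closure (by simp))
    (by rw [closure_le]; rintro y (rfl | rfl); exacts [h.zQ, hx]) w hw
    (fun hc => hcon (closure_pair_le h.zz hxz (h.sq x hx) hc))
  have h1 := hxw e he (he1 x (subset_closure (by simp)))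
  rw [h1] at he2
  exact h.z1 (mul_eq_right.mp he2.symm)

/-- Transport along an automorphism. -/
theorem map (h : ESet Q z) (φ : G ≃* G) : ESet (Q.map φ.toMonoidHom) (φ z) := by
  have hm : ∀ {y : G}, y ∈ Q.map φ.toMonoidHom ↔ φ.symm y ∈ Q := by
    intro y
    constructor
    · rintro ⟨q, hq, rfl⟩
      simpa using hq
    · intro hy
      exact ⟨_, hy, by simp⟩
  have key : ∀ a b : G, a = b ↔ φ.symm a = φ.symm b := fun a b => φ.symm.injective.eq_iff.symm
  refine ⟨?_, ?_, ?_, ?_, ?_, ?_, ?_, ?_⟩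
  · exact ⟨z, h.zQ, rfl⟩
  · intro h1; exact h.z1 (φ.injective (by rw [h1, map_one]))
  · rw [← map_mul, h.zz, map_one]
  · intro q hq
    rw [hm] at hq
    rw [key]; simpa using h.zc _ hq
  · intro q hq
    rw [hm] at hq
    rw [key, key (q * q)]; simpa using h.sq _ hq
  · intro q hq r hr
    rw [hm] at hq hr
    rw [key, key (q * r)]; simpa using h.cm _ hq _ hr
  · intro W hW hWQ v hv hvW
    rw [hm] at hv
    obtain ⟨e, he, he1, he2⟩ := h.dc (W.comap φ.toMonoidHom) hW (by
      intro w hw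
      have := hWQ (mem_comap.mp hw)
      rw [hm] at this
      simpa using this) (φ.symm v) hv (by
        intro hc
        rw [mem_comap] at hc
        apply hvW
        simpa using hc)
    refine ⟨φ e, ⟨e, he, rfl⟩, ?_, ?_⟩
    · intro w hw
      rw [key]
      simpa using he1 (φ.symm w) (by rw [mem_comap]; simpa using hw)
    · rw [key]
      simpa using he2
  · intro c hc
    obtain ⟨e, he, he1⟩ := h.inn (φ.symm c) (by
      intro q hq
      have := hc (φ q) ⟨q, hq, rfl⟩
      rw [key, key (c * φ q)] at this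
      simpa using this)
    refine ⟨φ e, ⟨e, he, rfl⟩, ?_⟩
    intro q hq
    rw [hm] at hq
    rw [key]
    simpa using he1 _ hq

end ESet

theorem mem_map_conj {Q : Subgroup G} {g x : G} :
    x ∈ Q.map (MulAut.conj g).toMonoidHom ↔ g⁻¹ * x * g ∈ Q := by
  constructor
  · rintro ⟨q, hq, rfl⟩
    have : g⁻¹ * (MulAut.conj g).toMonoidHom q * g = q := by
      show g⁻¹ * (g * q * g⁻¹) * g = q
      group
    rw [this]; exact hq
  · intro h
    refine ⟨_, h, ?_⟩
    show g * (g⁻¹ * x * g) * g⁻¹ = x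
    group

/-- `Q` is extraspecial with centre `{1,z}`, contains its centralizer and is normalized by
the centralizer of `z`. -/
structure LSet (Q : Subgroup G) (z : G) : Prop extends ESet Q z where
  CQ : ∀ c : G, (∀ q ∈ Q, c * q = q * c) → c ∈ Q
  NQ : ∀ c : G, c * z = z * c → ∀ q ∈ Q, c * q * c⁻¹ ∈ Q

namespace LSet

variable {Q : Subgroup G} {z : G}

theorem conj (h : LSet Q z) (g : G) : LSet (Q.map (MulAut.conj g).toMonoidHom) (g * z * g⁻¹) where
  toESet := h.toESet.map (MulAut.conj g)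
  CQ := by
    intro c hc
    rw [mem_map_conj]
    apply h.CQ
    intro q hq
    have h1 := hc (g * q * g⁻¹) ⟨q, hq, rfl⟩
    calc g⁻¹ * c * g * q = g⁻¹ * (c * (g * q * g⁻¹)) * g := by group
      _ = g⁻¹ * ((g * q * g⁻¹) * c) * g := by rw [h1]
      _ = _ := by group
  NQ := by
    intro c hc q hq
    rw [mem_map_conj] at hq ⊢
    have h1 := h.NQ (g⁻¹ * c * g) (by
      calc g⁻¹ * c * g * z = g⁻¹ * (c * (g * z * g⁻¹)) * g := by group
        _ = g⁻¹ * ((g * z * g⁻¹) * c) * g := by rw [hc]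
        _ = _ := by group) _ hq
    have h2 : g⁻¹ * c * g * (g⁻¹ * q * g) * (g⁻¹ * c * g)⁻¹ = g⁻¹ * (c * q * c⁻¹) * g := by group
    rwa [h2] at h1

theorem NQ' (h : LSet Q z) {c : G} (hc : c * z = z * c) {q : G} (hq : q ∈ Q) :
    c⁻¹ * q * c ∈ Q := by
  have h1 : c⁻¹ * z = z * c⁻¹ := by
    calc c⁻¹ * z = c⁻¹ * (z * c) * c⁻¹ := by group
      _ = c⁻¹ * (c * z) * c⁻¹ := by rw [hc]
      _ = z * c⁻¹ := by group
  have := h.NQ c⁻¹ h1 q hq
  simpa using this

/-- The key transvection lemma: an element commuting with `z` and acting on the hyperplane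
`C_Q(x)` trivially modulo `z`, with `x` a noncentral involution of `Q`, lies in `Q`. -/
theorem lemT (h : LSet Q z) {c x : G} (hcz : c * z = z * c) (hx : x ∈ Q) (hxx : x * x = 1)
    (hx1 : x ≠ 1) (hxz : x ≠ z)
    (hA : ∀ a ∈ Q, a * x = x * a → c * a = a * c ∨ c * a = z * (a * c)) : c ∈ Q := by
  obtain ⟨u, hu, hux⟩ := h.noncentral hx hx1 hxz
  have zz' := h.zz'
  have hcz' : ∀ t, c * (z * t) = z * (c * t) := fun t => by rw [← mul_assoc, hcz, mul_assoc]
  -- t = [c,u]
  obtain ⟨t, ht⟩ : ∃ t, t = c * u * c⁻¹ * u⁻¹ := ⟨_, rfl⟩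
  have htQ : t ∈ Q := by rw [ht]; exact mul_mem (h.NQ c hcz u hu) (inv_mem hu)
  have hcu : c * u = t * (u * c) := by rw [ht]; group
  have ztc : ∀ q ∈ Q, ∀ s, q * (z * s) = z * (q * s) := fun q hq s => by
    rw [← mul_assoc, h.zc q hq, mul_assoc]
  have ht2 : ∀ y ∈ Q, y * x = x * y → y * t = t * y := by
    intro a ha hax
    -- [u,a] = ±
    have h1 : ∃ α, (α = 1 ∨ α = z) ∧ c * a = α * (a * c) := by
      rcases hA a ha hax with h2 | h2
      · exact ⟨1, Or.inl rfl, by rw [one_mul]; exact h2⟩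
      · exact ⟨z, Or.inr rfl, h2⟩
    have h2 : ∃ β, (β = 1 ∨ β = z) ∧ u * a = β * (a * u) := by
      rcases h.cm u hu a ha with h2 | h2
      · exact ⟨1, Or.inl rfl, by rw [one_mul]; exact h2⟩
      · exact ⟨z, Or.inr rfl, h2⟩
    obtain ⟨α, hα, h3⟩ := h1
    obtain ⟨β, hβ, h4⟩ := h2
    have αc : ∀ s, (∀ r, s * (z * r) = z * (s * r)) → ∀ r, s * (α * r) = α * (s * r) := by
      intro s hs r
      rcases hα with rfl | rfl
      · simp
      · exact hs r
    have βc : ∀ s, (∀ r, s * (z * r) = z * (s * r)) → ∀ r, s * (β * r) = β * (s * r) := by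
      intro s hs r
      rcases hβ with rfl | rfl
      · simp
      · exact hs r
    -- c (u a) = c β a u = β α a c u = β α a t u c ;  (c u) a = t u c a = t u α a c = α t β a u c
    have e1 : c * (u * a) = β * (α * (a * (t * (u * c)))) := by
      rw [h4, βc c hcz', ← mul_assoc c a u, h3, mul_assoc α, mul_assoc a, hcu]
    have e2 : c * (u * a) = β * (α * (t * (a * (u * c)))) := by
      calc c * (u * a) = t * (u * c) * a := by rw [← hcu]; group
        _ = t * (u * (c * a)) := by group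
        _ = α * (t * (u * (a * c))) := by rw [h3, αc u (ztc u hu), αc t (ztc t htQ)]
        _ = α * (t * ((u * a) * c)) := by group
        _ = α * (t * (β * ((a * u) * c))) := by rw [h4]; group
        _ = α * (β * (t * (a * (u * c)))) := by rw [βc t (ztc t htQ)]; group
        _ = β * (α * (t * (a * (u * c)))) := by
            rcases hα with rfl | rfl <;> rcases hβ with rfl | rfl <;> simp
    rw [e1] at e2
    have e3 := mul_left_cancel (mul_left_cancel e2)
    have e4 : (a * t) * (u * c) = (t * a) * (u * c) := by simpa [mul_assoc] using e3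
    exact mul_right_cancel e4
  have htm := h.dual hx htQ ht2
  -- exclude t = x, z x
  have hsq : (t * u) * (t * u) = u * u := by
    have h1 : t * u = c * u * c⁻¹ := by rw [ht]; group
    rw [h1]
    have h2 : c * u * c⁻¹ * (c * u * c⁻¹) = c * (u * u) * c⁻¹ := by group
    rw [h2]
    rcases h.sq u hu with h3 | h3
    · rw [h3]; group
    · rw [h3, hcz]; group
  have hut : u * t = z * (t * u) → False := by
    intro h1
    have h2 : (t * u) * (t * u) = z * ((t * t) * (u * u)) := by
      calc (t * u) * (t * u) = t * (u * t) * u := by group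
        _ = t * (z * (t * u)) * u := by rw [h1]
        _ = _ := by rw [ztc t htQ]; group
    have h3 : t * t = 1 := by
      rcases htm with h4 | h4 | h4 | h4
      · rw [h4, one_mul]
      · rw [h4]; exact h.zz
      · rw [h4]; exact hxx
      · rw [h4, mul_assoc, ztc x hx, zz', hxx]
    rw [h3, one_mul, hsq] at h2
    exact h.z1 (mul_eq_right.mp h2.symm)
  have htm2 : t = 1 ∨ t = z := by
    rcases htm with h4 | h4 | h4 | h4
    · exact Or.inl h4
    · exact Or.inr h4
    · exfalso; apply hut; rw [h4]; exact hux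
    · exfalso; apply hut; rw [h4, ztc u hu, hux, mul_assoc]
  -- now c acts trivially modulo z on all of Q
  have hall : ∀ q ∈ Q, c * q = q * c ∨ c * q = z * (q * c) := by
    intro q hq
    rcases h.cm q hq x hx with h1 | h1
    · exact hA q hq h1
    · -- q = (q u⁻¹) u with q u⁻¹ commuting with x
      have h2 : (q * u⁻¹) * x = x * (q * u⁻¹) := by
        have h3 : u⁻¹ * x = z * (x * u⁻¹) := by
          calc u⁻¹ * x = u⁻¹ * (z * (z * x * u)) * u⁻¹ := by
                rw [mul_assoc z x u, zz']; group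
            _ = u⁻¹ * (z * (u * x)) * u⁻¹ := by rw [hux, mul_assoc z x u]
            _ = z * (x * u⁻¹) := by
                rw [ztc _ (inv_mem hu)]; group
        calc q * u⁻¹ * x = q * (u⁻¹ * x) := by group
          _ = q * (z * (x * u⁻¹)) := by rw [h3]
          _ = z * (q * x * u⁻¹) := by rw [ztc q hq]; group
          _ = z * (z * (x * q) * u⁻¹) := by rw [h1]
          _ = x * (q * u⁻¹) := by rw [mul_assoc z, zz']; group
      have h3 := hA _ (mul_mem hq (inv_mem hu)) h2
      have h4 : ∃ α, (α = 1 ∨ α = z) ∧ c * (q * u⁻¹) = α * ((q * u⁻¹) * c) := by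
        rcases h3 with h5 | h5
        · exact ⟨1, Or.inl rfl, by rw [one_mul]; exact h5⟩
        · exact ⟨z, Or.inr rfl, h5⟩
      obtain ⟨α, hα, h5⟩ := h4
      have h6 : c * q = α * (t * (q * c)) := by
        calc c * q = c * (q * u⁻¹) * u := by group
          _ = α * ((q * u⁻¹) * (c * u)) := by rw [h5]; group
          _ = α * ((q * u⁻¹) * (t * (u * c))) := by rw [hcu]
          _ = α * (t * ((q * u⁻¹) * (u * c))) := by
              congr 1
              rcases htm2 with h7 | h7
              · rw [h7]; simp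
              · rw [h7]; exact ztc _ (mul_mem hq (inv_mem hu)) _
          _ = _ := by group
      rw [h6]
      rcases hα with rfl | rfl <;> rcases htm2 with h7 | h7 <;> rw [h7] <;> simp [zz']
  obtain ⟨e, he, hec⟩ := h.inn c hall
  have h8 : e⁻¹ * c ∈ Q := by
    apply h.CQ
    intro q hq
    have := hec q hq
    calc e⁻¹ * c * q = e⁻¹ * (c * q * c⁻¹) * c := by group
      _ = e⁻¹ * (e * q * e⁻¹) * c := by rw [this]
      _ = _ := by group
  have h9 : c = e * (e⁻¹ * c) := by group
  rw [h9]; exact mul_mem he h8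

theorem pm {x : G} {A B : G} (h : A = B ∨ A = x * B) : ∃ α, (α = 1 ∨ α = x) ∧ A = α * B := by
  rcases h with h | h
  · exact ⟨1, Or.inl rfl, by rw [h, one_mul]⟩
  · exact ⟨x, Or.inr rfl, h⟩

theorem pm_comm {x α s : G} (hα : α = 1 ∨ α = x) (hs : s * x = x * s) (r : G) :
    s * (α * r) = α * (s * r) := by
  rcases hα with rfl | rfl
  · simp
  · rw [← mul_assoc, hs, mul_assoc]

theorem pm_sq {x α : G} (hx : x * x = 1) (hα : α = 1 ∨ α = x) (r : G) : α * (α * r) = r := by
  rcases hα with rfl | rfl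
  · simp
  · rw [← mul_assoc, hx, one_mul]

theorem pm_mul {x α β : G} (hx : x * x = 1) (hα : α = 1 ∨ α = x) (hβ : β = 1 ∨ β = x) :
    α * β = 1 ∨ α * β = x := by
  rcases hα with rfl | rfl <;> rcases hβ with rfl | rfl <;> simp [hx]

/-- Core of the symmetry of orthogonality. -/
theorem sym_core {P : Subgroup G} {x : G} (h : LSet Q z) (hP : LSet P x) (hxQ : x ∈ Q)
    (hxz : x ≠ z) (hI : ∀ y ∈ P, y * z = z * (x * y) → z ∈ P) : z ∈ P := by
  by_contra hzP
  have hzx : x * z = z * x := h.zc x hxQ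
  have zx' : ∀ r, z * (x * r) = x * (z * r) := fun r => by rw [← mul_assoc, ← hzx, mul_assoc]
  have xx' := hP.zz'
  -- S1
  have S1 : ∀ b ∈ Q, b ∈ P → b = 1 ∨ b = x := by
    intro b hbQ hbP
    have h1 := h.dual hxQ hbQ (by
      intro a ha hax
      rcases h.cm a ha b hbQ with h2 | h2
      · exact h2
      · exfalso; apply hzP
        have h3 : z = (a * b * a⁻¹) * b⁻¹ := by rw [h2]; group
        rw [h3]
        exact mul_mem (hP.NQ a hax b hbP) (inv_mem hbP))
    rcases h1 with h1 | h1 | h1 | h1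
    · exact Or.inl h1
    · exact absurd (h1 ▸ hbP) hzP
    · exact Or.inr h1
    · exfalso; apply hzP
      have : z = b * x⁻¹ := by rw [h1]; group
      rw [this]; exact mul_mem hbP (inv_mem hP.zQ)
  -- S2
  have S2 : ∀ a ∈ Q, a * x = x * a → ∀ d ∈ P, d * z = z * d → a * d = d * a ∨ a * d = x * (d * a) := by
    intro a ha hax d hd hdz
    have h1 : a * d * a⁻¹ * d⁻¹ ∈ P := mul_mem (hP.NQ a hax d hd) (inv_mem hd)
    have h2 : a * d * a⁻¹ * d⁻¹ ∈ Q := by
      have : a * d * a⁻¹ * d⁻¹ = a * (d * a⁻¹ * d⁻¹) := by group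
      rw [this]; exact mul_mem ha (h.NQ d hdz _ (inv_mem ha))
    rcases S1 _ h2 h1 with h3 | h3
    · left; exact ExtraH28.comm_eq_one_iff.mp h3
    · right; rw [← h3]; group
  -- S3
  have S3 : ∀ v ∈ P, (z * v = v * z ∨ z * v = x * (v * z)) → z * v = v * z := by
    intro v hv h1
    rcases h1 with h1 | h1
    · exact h1
    · exfalso; apply hzP
      apply hI v hv
      rw [zx', h1, xx']
  -- S4
  have S4 : ∀ v ∈ P, z * v * z⁻¹ * v⁻¹ ∈ P ∧
      z * (z * v * z⁻¹ * v⁻¹) = (z * v * z⁻¹ * v⁻¹) * z := by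
    intro v hv
    have hw : z * v * z⁻¹ * v⁻¹ ∈ P := mul_mem (hP.NQ z hzx.symm v hv) (inv_mem hv)
    refine ⟨hw, ?_⟩
    apply S3 _ hw
    have h1 : z * (z * v * z⁻¹ * v⁻¹) = (z * v * z⁻¹ * v⁻¹)⁻¹ * z := by
      calc z * (z * v * z⁻¹ * v⁻¹) = (z * z) * v * z⁻¹ * v⁻¹ := by group
        _ = v * z⁻¹ * v⁻¹ := by rw [h.zz]; group
        _ = v * z * v⁻¹ := by rw [h.zinv]
        _ = _ := by group
    rcases hP.sq _ hw with h2 | h2
    · left; rw [h1, inv_eq_of_mul_eq_one_left h2]
    · right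
      rw [h1]
      have h3 : (z * v * z⁻¹ * v⁻¹)⁻¹ = x * (z * v * z⁻¹ * v⁻¹) := by
        rw [inv_eq_iff_mul_eq_one]
        calc (z * v * z⁻¹ * v⁻¹) * (x * (z * v * z⁻¹ * v⁻¹))
            = x * ((z * v * z⁻¹ * v⁻¹) * (z * v * z⁻¹ * v⁻¹)) := by
              rw [← mul_assoc, hP.zc _ hw, mul_assoc]
          _ = 1 := by rw [h2, hP.zz]
      rw [h3, mul_assoc x]
  -- conj of D by A, in general form
  have S5 : ∀ a ∈ Q, a * x = x * a → ∀ v ∈ P, a * v * a⁻¹ * v⁻¹ ∈ P ∧
      z * (a * v * a⁻¹ * v⁻¹) = (a * v * a⁻¹ * v⁻¹) * z := by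
    intro a ha hax v hv
    have hs : a * v * a⁻¹ * v⁻¹ ∈ P := mul_mem (hP.NQ a hax v hv) (inv_mem hv)
    refine ⟨hs, ?_⟩
    obtain ⟨s, hsdef⟩ : ∃ s, s = a * v * a⁻¹ * v⁻¹ := ⟨_, rfl⟩
    rw [← hsdef] at hs ⊢
    have hvx := hP.zc v hv
    -- s commutes with every d in D
    have hsd : ∀ d ∈ P, d * z = z * d → s * d = d * s := by
      intro d hd hdz
      obtain ⟨α, hα, h1⟩ := pm (S2 a ha hax d hd hdz)
      obtain ⟨β, hβ, h2⟩ := pm (hP.cm v hv d hd)
      have hsx : s * x = x * s := hP.zc s hs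
      -- s * (v * a) = a * v
      have h3 : s * (v * a) = a * v := by rw [hsdef]; group
      -- (a v) d = αβ d (a v);  s (v a) d = αβ s d v a
      have h4 : a * v * d = α * (β * (d * (a * v))) := by
        calc a * v * d = a * (v * d) := by group
          _ = a * (β * (d * v)) := by rw [h2]
          _ = β * ((a * d) * v) := by rw [pm_comm hβ hax]; group
          _ = β * (α * (d * (a * v))) := by rw [h1]; group
          _ = _ := by rcases hα with rfl | rfl <;> rcases hβ with rfl | rfl <;> simp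
      have h5 : a * v * d = α * (β * (s * (d * (v * a)))) := by
        calc a * v * d = s * (v * a) * d := by rw [h3]
          _ = s * (v * (a * d)) := by group
          _ = s * (v * (α * (d * a))) := by rw [h1]
          _ = α * (s * ((v * d) * a)) := by rw [pm_comm hα hvx, pm_comm hα hsx]; group
          _ = α * (s * (β * (d * (v * a)))) := by rw [h2]; group
          _ = α * (β * (s * (d * (v * a)))) := by rw [pm_comm hβ hsx]
      have h6 : d * (a * v) = s * (d * (v * a)) := mul_left_cancel (mul_left_cancel (h4 ▸ h5))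
      rw [← h3] at h6
      have h7 : (d * s) * (v * a) = (s * d) * (v * a) := by simpa [mul_assoc] using h6
      exact (mul_right_cancel h7).symm
    by_contra hne
    -- W
    obtain ⟨e, he, he1, he2⟩ := hP.dc (closure ({x} ∪ {w | ∃ v ∈ P, w = z * v * z⁻¹ * v⁻¹}))
      (subset_closure (Or.inl rfl)) (by
        rw [closure_le]
        rintro y (rfl | ⟨v, hv, rfl⟩)
        · exact hP.zQ
        · exact (S4 v hv).1) s hs (by
        intro hc
        apply hne
        have : closure ({x} ∪ {w | ∃ v ∈ P, w = z * v * z⁻¹ * v⁻¹}) ≤ centralizer ({z} : Set G) := by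
          rw [closure_le]
          rintro y (rfl | ⟨v, hv, rfl⟩)
          · rw [SetLike.mem_coe, mem_centralizer_singleton_iff]; exact hzx
          · rw [SetLike.mem_coe, mem_centralizer_singleton_iff]; exact (S4 v hv).2.symm
        exact (mem_centralizer_singleton_iff.mp (this hc)).symm)
    have hex : e * x = x * e := hP.zc e he
    -- t = [z,e] is central in P
    have ht : z * e * z⁻¹ * e⁻¹ ∈ P := (S4 e he).1
    obtain ⟨t, htdef⟩ : ∃ t, t = z * e * z⁻¹ * e⁻¹ := ⟨_, rfl⟩
    rw [← htdef] at ht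
    have hte : t * (e * z) = z * e := by rw [htdef]; group
    have htv : ∀ v ∈ P, t * v = v * t := by
      intro v hv
      obtain ⟨β, hβ, h2⟩ := pm (hP.cm e he v hv)
      obtain ⟨w, hwdef⟩ : ∃ w, w = z * v * z⁻¹ * v⁻¹ := ⟨_, rfl⟩
      have hwP : w ∈ P := by rw [hwdef]; exact (S4 v hv).1
      have hew : e * w = w * e := he1 w (subset_closure (Or.inr ⟨v, hv, hwdef⟩))
      have hzv : z * v = w * (v * z) := by rw [hwdef]; group
      have htx : t * x = x * t := hP.zc t ht
      have hwx : w * x = x * w := hP.zc w hwP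
      have hvx := hP.zc v hv
      have hwv : w * v = z * v * z⁻¹ := by rw [hwdef]; group
      have hzwv : z * (w * v) * z⁻¹ = v := by
        rw [hwv]
        calc z * (z * v * z⁻¹) * z⁻¹ = (z * z) * v * (z * z)⁻¹ := by group
          _ = v := by rw [h.zz]; group
      -- (z e z⁻¹) v = β v (z e z⁻¹)
      have e1 : (z * e * z⁻¹) * v = β * (v * (z * e * z⁻¹)) := by
        calc (z * e * z⁻¹) * v = (z * e * z⁻¹) * (z * (w * v) * z⁻¹) := by rw [hzwv]
          _ = z * ((e * w) * v) * z⁻¹ := by group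
          _ = z * (w * (e * v)) * z⁻¹ := by rw [hew]; group
          _ = z * (β * ((w * v) * e)) * z⁻¹ := by rw [h2, pm_comm hβ hwx]; group
          _ = β * ((z * (w * v) * z⁻¹) * (z * e * z⁻¹)) := by rw [pm_comm hβ hzx.symm]; group
          _ = _ := by rw [hzwv]
      have e2 : t * e = z * e * z⁻¹ := by rw [htdef]; group
      rw [← e2] at e1
      have e3 : (t * e) * v = β * ((t * v) * e) := by
        calc (t * e) * v = t * (e * v) := by group
          _ = t * (β * (v * e)) := by rw [h2]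
          _ = _ := by rw [pm_comm hβ htx]; group
      have e4 : β * ((t * v) * e) = β * ((v * t) * e) := by
        rw [← e3, e1]; group
      exact mul_right_cancel (mul_left_cancel e4)
    have htc : t = 1 ∨ t = x := by
      by_contra hc
      push Not at hc
      obtain ⟨f, hf, hft⟩ := hP.noncentral ht hc.1 hc.2
      rw [← htv f hf] at hft
      exact hP.z1 (mul_eq_right.mp hft.symm)
    have hez : z * e = e * z := by
      apply S3 e he
      rcases htc with h1 | h1
      · left; rw [← hte, h1, one_mul]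
      · right; rw [← hte, h1]
    have h1 := hsd e he hez.symm
    rw [h1] at he2
    exact hP.z1 (mul_eq_right.mp he2.symm)
  -- S6
  have S6 : ∀ a ∈ Q, a * x = x * a → ∀ a' ∈ Q, a' * x = x * a' → a * a' = a' * a := by
    intro a ha hax a' ha' hax'
    rcases h.cm a ha a' ha' with h1 | h1
    · exact h1
    exfalso; apply hzP
    apply hP.CQ
    intro v hv
    apply S3 v hv
    -- v = b u b⁻¹, b = a' a
    obtain ⟨b, hb⟩ : ∃ b, b = a' * a := ⟨_, rfl⟩
    have hbx : b * x = x * b := by
      rw [hb, mul_assoc, hax, ← mul_assoc, hax', mul_assoc]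
    obtain ⟨u, hu⟩ : ∃ u, u = b⁻¹ * v * b := ⟨_, rfl⟩
    have huP : u ∈ P := by rw [hu]; exact hP.NQ' hbx hv
    have hbu : b * u * b⁻¹ = v := by rw [hu]; group
    obtain ⟨s, hs⟩ : ∃ s, s = a * u * a⁻¹ * u⁻¹ := ⟨_, rfl⟩
    obtain ⟨s', hs'⟩ : ∃ s', s' = a' * u * a'⁻¹ * u⁻¹ := ⟨_, rfl⟩
    have hsP : s ∈ P ∧ z * s = s * z := by rw [hs]; exact S5 a ha hax u huP
    have hsP' : s' ∈ P ∧ z * s' = s' * z := by rw [hs']; exact S5 a' ha' hax' u huP
    have hau : a * u = s * (u * a) := by rw [hs]; group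
    have hau' : a' * u = s' * (u * a') := by rw [hs']; group
    obtain ⟨α, hα, h2⟩ := pm (S2 a ha hax s' hsP'.1 hsP'.2.symm)
    obtain ⟨α', hα', h2'⟩ := pm (S2 a' ha' hax' s hsP.1 hsP.2.symm)
    obtain ⟨γ, hγ, h3⟩ := pm (hP.cm s hsP.1 s' hsP'.1)
    have hsx : s * x = x * s := hP.zc s hsP.1
    have hsx' : s' * x = x * s' := hP.zc s' hsP'.1
    have hux : u * x = x * u := hP.zc u huP
    -- (a a') u = α s' s u (a a')
    have e1 : a * a' * u = α * (s' * (s * (u * (a * a')))) := by
      calc a * a' * u = a * (a' * u) := by group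
        _ = a * s' * (u * a') := by rw [hau']; group
        _ = α * (s' * (a * u) * a') := by rw [h2]; group
        _ = α * (s' * (s * (u * a)) * a') := by rw [hau]
        _ = _ := by group
    have e2 : a' * a * u = α' * (s * (s' * (u * (a' * a)))) := by
      calc a' * a * u = a' * (a * u) := by group
        _ = a' * s * (u * a) := by rw [hau]; group
        _ = α' * (s * (a' * u) * a) := by rw [h2']; group
        _ = α' * (s * (s' * (u * a')) * a) := by rw [hau']
        _ = _ := by group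
    -- hence a a' u (a a')⁻¹ = δ * v with δ = ±
    have e3 : s * (s' * u) = α' * v := by
      have : v = α' * (s * (s' * u)) := by
        rw [← hbu, hb, e2]; group
      rw [this, pm_sq hP.zz hα']
    have e4 : z * v * z⁻¹ = α * (γ * (α' * v)) := by
      have h5 : z * v * z⁻¹ = (a * a') * u * (a * a')⁻¹ := by
        rw [← hbu, hb, h1]; group
      rw [h5, e1]
      calc α * (s' * (s * (u * (a * a')))) * (a * a')⁻¹ = α * (s' * s * u) := by group
        _ = α * (γ * (s * (s' * u))) := by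
            congr 1
            have h6 : s' * s = γ * (s * s') := by
              rw [h3, pm_sq hP.zz hγ]
            rw [h6]; group
        _ = _ := by rw [e3]
    have hδ := pm_mul hP.zz (pm_mul hP.zz hα hγ) hα'
    have e5 : z * v = (α * γ * α') * (v * z) := by
      calc z * v = (z * v * z⁻¹) * z := by group
        _ = _ := by rw [e4]; group
    rcases hδ with h5 | h5
    · left; rw [e5, h5, one_mul]
    · right; rw [e5, h5]
  -- S7: D ⊆ {1, x}
  have S7 : ∀ d ∈ P, d * z = z * d → d = 1 ∨ d = x := by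
    intro d hd hdz
    have hdQ : d ∈ Q := by
      refine h.lemT hdz hxQ hP.zz hP.z1 hxz ?_
      intro a ha hax
      left
      have hdx := hP.zc d hd
      rcases h.dual hxQ ha (fun y hy hyx => S6 y hy hyx a ha hax) with h1 | h1 | h1 | h1
      · rw [h1, one_mul, mul_one]
      · rw [h1]; exact hdz
      · rw [h1]; exact hdx
      · rw [h1, ← mul_assoc, hdz, mul_assoc, hdx, mul_assoc]
    exact S1 d hdQ hd
  apply hzP
  apply hP.CQ
  intro v hv
  apply S3 v hv
  obtain ⟨hw1, hw2⟩ := S4 v hv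
  rcases S7 _ hw1 hw2.symm with h1 | h1
  · left; exact ExtraH28.comm_eq_one_iff.mp h1
  · right; rw [← h1]; group

/-- Symmetry of orthogonality: if `x = g z g⁻¹ ∈ Q`, `x ≠ z`, then `z ∈ g Q g⁻¹`. -/
theorem sym (h : LSet Q z) {g : G} (hxQ : g * z * g⁻¹ ∈ Q) (hxz : g * z * g⁻¹ ≠ z) :
    z ∈ Q.map (MulAut.conj g).toMonoidHom := by
  have hP := h.conj g
  obtain ⟨x, hx⟩ : ∃ x, x = g * z * g⁻¹ := ⟨_, rfl⟩
  rw [← hx] at hxQ hxz hP
  apply h.sym_core hP hxQ hxz
  intro y hy hyz
  obtain ⟨u, hu, hux⟩ := h.noncentral hxQ hP.z1 hxz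
  have hyx := hP.zc y hy
  have huz := h.zc u hu
  have hzx : x * z = z * x := h.zc x hxQ
  have zz' := h.zz'
  have xx' := hP.zz'
  have huz' : ∀ r, u * (z * r) = z * (u * r) := fun r => by rw [← mul_assoc, huz, mul_assoc]
  have hyx' : ∀ r, y * (x * r) = x * (y * r) := fun r => by rw [← mul_assoc, hyx, mul_assoc]
  have hux' : ∀ r, u * (x * r) = z * (x * (u * r)) := fun r => by
    rw [← mul_assoc, hux, mul_assoc, mul_assoc]
  have hyz' : ∀ r, y * (z * r) = z * (x * (y * r)) := fun r => by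
    rw [← mul_assoc, hyz, mul_assoc, mul_assoc]
  have h1 : (u * (y * u)) * z = x * (u * (y * u)) := by
    simp only [mul_assoc, huz, hyz', huz', hux', zz']
  have h2 : (u * (y * u)) * x = z * (u * (y * u)) := by
    simp only [mul_assoc, hux, hyz', hyx', huz', hux', zz', xx']
  have h3 : (g⁻¹ * (u * (y * u))) * z = z * (g⁻¹ * (u * (y * u))) := by
    rw [mul_assoc, h1, hx]; group
  have h4 := h.NQ _ h3 x hxQ
  rw [mem_map_conj]
  have h5 : g⁻¹ * (u * (y * u)) * x * (g⁻¹ * (u * (y * u)))⁻¹ = g⁻¹ * z * g := by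
    rw [mul_assoc g⁻¹, h2]; group
  rwa [h5] at h4

end LSet

end CfsgLib.LargeExtraH28
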