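import Mathlib
import Cfsg.Agent.LibLargeExtraH28
import Cfsg.Agent.LibCores

set_option autoImplicit false

/-! The family `x ↦ O₂(C(x))` for a large extraspecial 2-subgroup (helper28). -/

namespace CfsgLib.LargeFamH28

open Subgroup
open CfsgLib.LargeExtraH28

variable {G : Type*} [Group G]

theorem map_core {C C' : Subgroup G} (φ : G ≃* G) (e : C ≃* C')
    (he : ∀ c : C, ((e c : C') : G) = φ c) (p : ℕ) :
    ((Cfsg.pCore p ↥C).map C.subtype).map φ.toMonoidHom =
      (Cfsg.pCore p ↥C').map C'.subtype := by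
  rw [← Cores.map_pCore_equiv p e]
  ext y
  constructor
  · rintro ⟨_, ⟨c, hc, rfl⟩, rfl⟩
    exact ⟨e c, ⟨c, hc, rfl⟩, he c⟩
  · rintro ⟨_, ⟨c, hc, rfl⟩, rfl⟩
    exact ⟨c, ⟨c, hc, rfl⟩, (he c).symm⟩

theorem map_centralizer_singleton (φ : G ≃* G) (x : G) :
    (centralizer ({x} : Set G)).map φ.toMonoidHom = centralizer ({φ x} : Set G) := by
  ext y
  constructor
  · rintro ⟨w, hw, rfl⟩
    rw [SetLike.mem_coe, mem_centralizer_singleton_iff] at hw
    rw [mem_centralizer_singleton_iff]
    have := congrArg φ hw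
    simpa using this
  · intro hy
    rw [mem_centralizer_singleton_iff] at hy
    refine ⟨φ.symm y, ?_, by simp⟩
    rw [SetLike.mem_coe, mem_centralizer_singleton_iff]
    apply φ.injective
    simpa using hy

theorem core_centralizer_conj (g x : G) (p : ℕ) :
    (Cfsg.pCore p ↥(centralizer ({g * x * g⁻¹} : Set G))).map
      (centralizer ({g * x * g⁻¹} : Set G)).subtype =
    ((Cfsg.pCore p ↥(centralizer ({x} : Set G))).map
      (centralizer ({x} : Set G)).subtype).map (MulAut.conj g).toMonoidHom := by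
  have h := map_centralizer_singleton (MulAut.conj g) x
  symm
  exact map_core (MulAut.conj g) (((MulAut.conj g).subgroupMap _).trans
    (MulEquiv.subgroupCongr h)) (fun c => rfl) p

structure Fam (F : G → Subgroup G) (z : G) : Prop where
  l : LSet (F z) z
  conj : ∀ g x, F (g * x * g⁻¹) = (F x).map (MulAut.conj g).toMonoidHom

theorem fam_of [Finite G] (Q : G → Subgroup G)
    (hQ : ∀ x : G, Q x = (Cfsg.pCore 2 ↥(Subgroup.centralizer ({x} : Set G))).map
      (Subgroup.centralizer ({x} : Set G)).subtype)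
    (z : G) (hz : orderOf z = 2) (hE : Cfsg.IsExtraspecial 2 ↥(Q z))
    (hC : Subgroup.centralizer ((Q z : Subgroup G) : Set G) ≤ Q z) : Fam Q z := by
  have hzC : z ∈ centralizer ({z} : Set G) := by rw [mem_centralizer_singleton_iff]
  have hle : Q z ≤ centralizer ({z} : Set G) := by rw [hQ]; exact map_subtype_le _
  have hz2 : z ^ 2 = 1 := by rw [← hz]; exact pow_orderOf_eq_one z
  have hzQ : z ∈ Q z := by
    rw [hQ]
    refine ⟨⟨z, hzC⟩, ?_, rfl⟩
    have hn : (zpowers (⟨z, hzC⟩ : centralizer ({z} : Set G))).Normal := by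
      refine ⟨fun n hn g => ?_⟩
      obtain ⟨k, rfl⟩ := hn
      have h1 : g * (⟨z, hzC⟩ : centralizer ({z} : Set G)) ^ k * g⁻¹ =
          (⟨z, hzC⟩ : centralizer ({z} : Set G)) ^ k := by
        have h2 : Commute g (⟨z, hzC⟩ : centralizer ({z} : Set G)) :=
          Subtype.ext (mem_centralizer_singleton_iff.mp g.2)
        rw [(h2.zpow_right k).eq]; group
      show g * (⟨z, hzC⟩ : centralizer ({z} : Set G)) ^ k * g⁻¹ ∈ _
      rw [h1]; exact zpow_mem (Subgroup.mem_zpowers _) _
    have hp : IsPGroup 2 (zpowers (⟨z, hzC⟩ : centralizer ({z} : Set G))) := by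
      apply IsPGroup.of_card (n := 1)
      rw [Nat.card_zpowers, pow_one, ← hz]
      exact Subgroup.orderOf_mk _ _
    exact Cores.le_pCore hn hp (Subgroup.mem_zpowers _)
  constructor
  · refine { ESet.of_extraspecial hE hzQ ?_ ?_ with CQ := ?_, NQ := ?_ }
    · intro h; rw [h, orderOf_one] at hz; norm_num at hz
    · intro q hq; exact mem_centralizer_singleton_iff.mp (hle hq)
    · intro c hc
      exact hC (by
        rw [mem_centralizer_iff]; intro q hq; exact (hc q hq).symm)
    · intro c hc q hq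
      rw [hQ] at hq ⊢
      obtain ⟨y, hy, rfl⟩ := hq
      haveI : (Cfsg.pCore 2 ↥(centralizer ({z} : Set G))).Normal := inferInstance
      exact ⟨⟨c, mem_centralizer_singleton_iff.mpr hc⟩ * y *
        ⟨c, mem_centralizer_singleton_iff.mpr hc⟩⁻¹, this.conj_mem y hy _, rfl⟩
  · intro g x
    rw [hQ, hQ]; exact core_centralizer_conj g x 2

theorem Fam.sym {F : G → Subgroup G} {z : G} (h : Fam F z) {g : G} (hx : g * z * g⁻¹ ∈ F z) :
    z ∈ F (g * z * g⁻¹) := by
  rw [h.conj]
  by_cases hne : g * z * g⁻¹ = z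
  · rw [mem_map_conj]
    have : g⁻¹ * z * g = z := by
      calc g⁻¹ * z * g = g⁻¹ * (g * z * g⁻¹) * g := by rw [hne]
        _ = z := by group
    rw [this]; exact h.l.zQ
  · exact h.l.sym hx hne

/-- `U` is singular. -/
structure Sing (F : G → Subgroup G) (z : G) (U : Subgroup G) : Prop where
  fam : Fam F z
  two : ∀ u ∈ U, u * u = 1
  cls : ∀ u ∈ U, u ≠ 1 → ∃ g : G, g * z * g⁻¹ = u
  ort : ∀ u ∈ U, ∀ v ∈ U, u ≠ 1 → v ≠ 1 → v ∈ F u

namespace Sing

variable {F : G → Subgroup G} {z : G} {U : Subgroup G}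

theorem lset (h : Sing F z U) {u : G} (hu : u ∈ U) (hu1 : u ≠ 1) : LSet (F u) u := by
  obtain ⟨g, rfl⟩ := h.cls u hu hu1
  rw [h.fam.conj]
  exact h.fam.l.conj g

theorem le (h : Sing F z U) {u : G} (hu : u ∈ U) (hu1 : u ≠ 1) : U ≤ F u := by
  intro v hv
  by_cases hv1 : v = 1
  · rw [hv1]; exact one_mem _
  · exact h.ort u hu v hv hu1 hv1

theorem comm (h : Sing F z U) {u v : G} (hu : u ∈ U) (hv : v ∈ U) : u * v = v * u := by
  have h1 := h.two _ (mul_mem hu hv)
  have h2 := h.two _ hu
  have h3 := h.two _ hv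
  calc u * v = u * (u * v * (u * v)) * v := by rw [h1]; group
    _ = (u * u) * (v * u) * (v * v) := by group
    _ = v * u := by rw [h2, h3]; group

theorem conj_mem (h : Sing F z U) {u : G} (hu : u ∈ U) (hu1 : u ≠ 1) {q : G} (hq : q ∈ F u)
    {v : G} (hv : v ∈ U) : q * v * q⁻¹ ∈ U := by
  rcases (h.lset hu hu1).cm q hq v (h.le hu hu1 hv) with h1 | h1
  · rw [h1]; simpa using hv
  · rw [h1]
    have : u * (v * q) * q⁻¹ = u * v := by group
    rw [this]; exact mul_mem hu hv

theorem le_normalizer (h : Sing F z U) {u : G} (hu : u ∈ U) (hu1 : u ≠ 1) :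
    F u ≤ normalizer (U : Set G) := by
  intro q hq
  rw [mem_normalizer_iff]
  intro v
  constructor
  · intro hv; exact h.conj_mem hu hu1 hq hv
  · intro hv
    have := h.conj_mem hu hu1 (inv_mem hq) hv
    simpa [mul_assoc] using this

theorem LU_le_normalizer (h : Sing F z U) :
    (⨆ u ∈ ((U : Set G) \ {1}), F u) ≤ normalizer (U : Set G) := by
  refine iSup₂_le ?_
  rintro u ⟨hu, hu1⟩
  exact h.le_normalizer hu hu1

theorem le_LU {u : G} (hu : u ∈ U) (hu1 : u ≠ 1) :
    F u ≤ ⨆ u ∈ ((U : Set G) \ {1}), F u :=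
  le_iSup₂_of_le (f := fun u (_ : u ∈ ((U : Set G) \ {1})) => F u) u ⟨hu, hu1⟩ le_rfl

open scoped IsMulCommutative in
theorem aut (h : Sing F z U) [Finite G] (φ : U ≃* U) :
    ∃ g ∈ (⨆ u ∈ ((U : Set G) \ {1}), F u), ∀ u : U, g * (u : G) * g⁻¹ = ((φ u : U) : G) := by
  haveI : IsMulCommutative U := ⟨⟨fun a b => Subtype.ext (h.comm a.2 b.2)⟩⟩
  set LU := ⨆ u ∈ ((U : Set G) \ {1}), F u with hLU
  have key : ∀ S : Set U, S.Finite → ∃ g ∈ LU, ∀ w ∈ closure S,
      g * (w : G) * g⁻¹ = ((φ w : U) : G) := by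
    intro S hS
    induction S, hS using Set.Finite.induction_on with
    | empty =>
      refine ⟨1, one_mem _, ?_⟩
      intro w hw
      rw [Subgroup.closure_empty, mem_bot] at hw
      rw [hw]; simp
    | @insert v S hvS _ ih =>
      obtain ⟨g, hg, hgS⟩ := ih
      -- it suffices to agree on `S` and at `v`
      suffices hs : ∃ g' ∈ LU, (∀ w ∈ S, g' * (w : G) * g'⁻¹ = ((φ w : U) : G)) ∧
          g' * (v : G) * g'⁻¹ = ((φ v : U) : G) by
        obtain ⟨g', hg', h1, h2⟩ := hs
        refine ⟨g', hg', ?_⟩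
        intro w hw
        induction hw using closure_induction with
        | mem x hx =>
          rcases hx with rfl | hx
          · exact h2
          · exact h1 x hx
        | one => simp
        | mul a b _ _ ha hb =>
          rw [map_mul]
          show g' * ((a : G) * (b : G)) * g'⁻¹ = ((φ a : U) : G) * ((φ b : U) : G)
          rw [← ha, ← hb]; group
        | inv a _ ha =>
          rw [map_inv]
          show g' * ((a : G)⁻¹) * g'⁻¹ = (((φ a : U) : G))⁻¹
          rw [← ha]; group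
      by_cases hvc : v ∈ closure S
      · exact ⟨g, hg, fun w hw => hgS w (subset_closure hw), hgS v hvc⟩
      have hgU : ∀ w : U, g * (w : G) * g⁻¹ ∈ U := fun w =>
        (mem_normalizer_iff.mp (h.LU_le_normalizer hg) w).mp w.2
      obtain ⟨v1, hv1⟩ : ∃ v1 : U, (v1 : G) = g * (v : G) * g⁻¹ := ⟨⟨_, hgU v⟩, rfl⟩
      by_cases hvv : v1 = φ v
      · exact ⟨g, hg, fun w hw => hgS w (subset_closure hw), by rw [← hv1, hvv]⟩
      obtain ⟨u, hu⟩ : ∃ u : U, u = φ v * v1⁻¹ := ⟨_, rfl⟩
      have hu1 : (u : G) ≠ 1 := by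
        intro hc
        have : u = 1 := Subtype.ext hc
        rw [hu, mul_inv_eq_one] at this
        exact hvv this.symm
      -- W2
      let W2 : Subgroup U := (closure S).map φ.toMonoidHom ⊔ zpowers u
      have hW2 : v1 ∉ W2 := by
        intro hc
        obtain ⟨y, hy, t, ht, hyt⟩ := Subgroup.mem_sup.mp hc
        obtain ⟨w, hw, rfl⟩ := hy
        have hw' : φ w * t = v1 := hyt
        have htt : t = 1 ∨ t = u := by
          obtain ⟨k, rfl⟩ := ht
          have huu : u * u = 1 := Subtype.ext (h.two u u.2)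
          rcases Int.even_or_odd k with ⟨j, rfl⟩ | ⟨j, rfl⟩
          · left
            show u ^ (j + j) = 1
            rw [← two_mul, zpow_mul, zpow_two, huu, one_zpow]
          · right
            show u ^ (2 * j + 1) = u
            rw [zpow_add, zpow_one, zpow_mul, zpow_two, huu, one_zpow, one_mul]
        have hgw := hgS w hw
        rcases htt with rfl | rfl
        · rw [mul_one] at hw'
          apply hvc
          have : (w : G) = v := by
            rw [hw', hv1] at hgw
            exact mul_left_cancel (mul_right_cancel hgw)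
          have h5 : w = v := Subtype.ext this
          rwa [h5] at hw
        · -- φ w * (φ v * v1⁻¹) = v1 → φ (w * v) = v1 * v1 = 1
          have h11 : v1 * v1 = 1 := Subtype.ext (h.two v1 v1.2)
          have h6 : φ (w * v) = 1 := by
            rw [map_mul]
            calc φ w * φ v = (φ w * (φ v * v1⁻¹)) * v1 := by group
              _ = v1 * v1 := by rw [← hu, hw']
              _ = 1 := h11
          have h7 : w * v = 1 := by
            apply φ.injective; rw [h6, map_one]
          apply hvc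
          have : v = w⁻¹ := (inv_eq_of_mul_eq_one_right h7).symm
          rw [this]; exact inv_mem hw
      obtain ⟨e, he, he1, he2⟩ := (h.lset u.2 hu1).dc (W2.map U.subtype)
        ⟨u, le_sup_right (α := Subgroup U) (Subgroup.mem_zpowers u), rfl⟩
        (by rintro _ ⟨w, _, rfl⟩; exact h.le u.2 hu1 w.2) v1 (h.le u.2 hu1 v1.2)
        (by
          rintro ⟨w, hw, hwv⟩
          apply hW2
          have : w = v1 := Subtype.ext hwv
          rwa [this] at hw)
      refine ⟨e * g, mul_mem (le_LU u.2 hu1 he) hg, ?_, ?_⟩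
      · intro w hw
        have hgw := hgS w (subset_closure hw)
        have h8 := he1 (φ w : U) ⟨φ w, le_sup_left (α := Subgroup U)
          ⟨w, subset_closure hw, rfl⟩, rfl⟩
        calc e * g * (w : G) * (e * g)⁻¹ = e * (g * w * g⁻¹) * e⁻¹ := by group
          _ = e * ((φ w : U) : G) * e⁻¹ := by rw [hgw]
          _ = _ := by rw [h8]; group
      · calc e * g * (v : G) * (e * g)⁻¹ = e * (g * v * g⁻¹) * e⁻¹ := by group
          _ = e * (v1 : G) * e⁻¹ := by rw [hv1]
          _ = (u : G) * v1 := by rw [he2]; group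
          _ = ((u * v1 : U) : G) := rfl
          _ = _ := by rw [hu]; congr 1; group
  obtain ⟨g, hg, h1⟩ := key Set.univ Set.finite_univ
  exact ⟨g, hg, fun u => h1 u (subset_closure (Set.mem_univ _))⟩

theorem comm_mem_U (h : Sing F z U) {QU : Subgroup G}
    (hQU : QU = ⨅ u ∈ ((U : Set G) \ {1}), F u) :
    ∀ g ∈ (⨆ u ∈ ((U : Set G) \ {1}), F u), ∀ x ∈ QU, g * x * g⁻¹ * x⁻¹ ∈ U := by
  -- the set of such g is a subgroup
  have hQ : ∀ x ∈ QU, ∀ u ∈ U, u ≠ 1 → x ∈ F u := by
    intro x hx u hu hu1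
    rw [hQU] at hx
    exact (mem_iInf.mp (mem_iInf.mp hx u)) ⟨hu, hu1⟩
  by_cases hU : U = ⊥
  · subst hU
    intro g hg x hx
    have : (⨆ u ∈ (((⊥ : Subgroup G) : Set G) \ {1}), F u) = ⊥ := by
      rw [eq_bot_iff]
      refine iSup₂_le ?_
      rintro u ⟨hu, hu1⟩
      exact absurd hu hu1
    rw [this, mem_bot] at hg
    rw [hg]; simp
  have hUQ : U ≤ QU := by
    rw [hQU]
    refine le_iInf₂ ?_
    rintro u ⟨hu, hu1⟩
    exact h.le hu hu1
  let N : Subgroup G :=
    { carrier := {g | g ∈ normalizer (U : Set G) ∧ ∀ x ∈ QU, g * x * g⁻¹ * x⁻¹ ∈ U}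
      one_mem' := ⟨one_mem _, fun x _ => by simp⟩
      mul_mem' := by
        rintro a b ⟨ha, ha'⟩ ⟨hb, hb'⟩
        refine ⟨mul_mem ha hb, ?_⟩
        intro x hx
        have h1 : a * b * x * (a * b)⁻¹ * x⁻¹ =
            (a * (b * x * b⁻¹ * x⁻¹) * a⁻¹) * (a * x * a⁻¹ * x⁻¹) := by group
        rw [h1]
        exact mul_mem ((mem_normalizer_iff.mp ha _).mp (hb' x hx)) (ha' x hx)
      inv_mem' := by
        rintro a ⟨ha, ha'⟩
        refine ⟨inv_mem ha, ?_⟩
        intro x hx
        have h1 : a⁻¹ * x * a⁻¹⁻¹ * x⁻¹ = a⁻¹ * (a * x * a⁻¹ * x⁻¹)⁻¹ * a⁻¹⁻¹ := by group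
        rw [h1]
        exact (mem_normalizer_iff.mp (inv_mem ha) _).mp (inv_mem (ha' x hx)) }
  have hN : (⨆ u ∈ ((U : Set G) \ {1}), F u) ≤ N := by
    refine iSup₂_le ?_
    rintro u ⟨hu, hu1⟩ q hq
    refine ⟨h.le_normalizer hu hu1 hq, ?_⟩
    intro x hx
    rcases (h.lset hu hu1).cm q hq x (hQ x hx u hu hu1) with h1 | h1
    · rw [h1]; simp
    · rw [h1]
      have : u * (x * q) * q⁻¹ * x⁻¹ = u := by group
      rw [this]; exact hu
  intro g hg
  exact (hN hg).2

theorem transitive (h : Sing F z U) {QU : Subgroup G}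
    (hQU : QU = ⨅ u ∈ ((U : Set G) \ {1}), F u) :
    ∀ x ∈ QU, x ∉ U → ∀ u ∈ U, ∃ g ∈ (⨆ u ∈ ((U : Set G) \ {1}), F u) ⊓
      Subgroup.centralizer (U : Set G), g * x * g⁻¹ = x * u := by
  intro x hx hxU u hu
  by_cases hu1 : u = 1
  · exact ⟨1, one_mem _, by rw [hu1]; simp⟩
  have hxF : x ∈ F u := by
    rw [hQU] at hx
    exact (mem_iInf.mp (mem_iInf.mp hx u)) ⟨hu, hu1⟩
  obtain ⟨e, he, he1, he2⟩ := (h.lset hu hu1).dc U hu (h.le hu hu1) x hxF hxU
  refine ⟨e, mem_inf.mpr ⟨le_LU hu hu1 he, ?_⟩, ?_⟩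
  · rw [mem_centralizer_iff]
    intro w hw
    exact (he1 w hw).symm
  · rw [he2, (h.lset hu hu1).zc x hxF]; group

theorem inf_eq (h : Sing F z U) (T : Set G) (hT : closure T = U) (hT1 : (1 : G) ∉ T) :
    (⨅ u ∈ ((U : Set G) \ {1}), F u) = ⨅ t ∈ T, F t := by
  apply le_antisymm
  · refine le_iInf₂ ?_
    intro t ht
    refine iInf₂_le_of_le t ⟨?_, ?_⟩ le_rfl
    · rw [← hT]; exact subset_closure ht
    · intro hc; rw [Set.mem_singleton_iff] at hc; rw [hc] at ht; exact hT1 ht
  · intro y hy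
    have hyT : ∀ t ∈ T, y ∈ F t := fun t ht => mem_iInf.mp (mem_iInf.mp hy t) ht
    have key : ∀ u ∈ closure T, u = 1 ∨ y ∈ F u := by
      intro u hu
      induction hu using closure_induction with
      | mem x hx => exact Or.inr (hyT x hx)
      | one => exact Or.inl rfl
      | mul a b ha hb iha ihb =>
        rw [hT] at ha hb
        rcases iha with rfl | iha
        · simpa using ihb
        rcases ihb with rfl | ihb
        · right; simpa using iha
        by_cases ha1 : a = 1
        · rw [ha1, one_mul]; exact Or.inr ihb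
        by_cases hb1 : b = 1
        · rw [hb1, mul_one]; exact Or.inr iha
        by_cases hab : a * b = 1
        · exact Or.inl hab
        right
        have hla := h.lset ha ha1
        have hbF : b ∈ F a := h.ort a ha b hb ha1 hb1
        have hba : b ≠ a := by
          intro hc; apply hab; rw [hc]; exact h.two a ha
        obtain ⟨e, he, heb⟩ := hla.noncentral hbF hb1 hba
        have h1 : e * b * e⁻¹ = a * b := by rw [heb]; group
        rw [← h1, h.fam.conj, mem_map_conj]
        rcases hla.cm e⁻¹ (inv_mem he) y iha with h2 | h2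
        · rw [h2]; simpa using ihb
        · rw [h2]
          have h3 : a * (y * e⁻¹) * e = a * y := by group
          rw [h3]
          exact mul_mem (h.ort b hb a ha hb1 ha1) ihb
      | inv a ha iha =>
        rw [hT] at ha
        have : a⁻¹ = a := inv_eq_of_mul_eq_one_left (h.two a ha)
        rw [this]; exact iha
    rw [mem_iInf]
    intro u
    rw [mem_iInf]
    rintro ⟨hu, hu1⟩
    rw [SetLike.mem_coe, ← hT] at hu
    rcases key u hu with h1 | h1
    · exact absurd h1 hu1
    · exact h1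

end Sing

end CfsgLib.LargeFamH28
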