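import Mathlib

set_option autoImplicit false

namespace CfsgLib.LawSL2

open Polynomial Matrix
open scoped MatrixGroups Pointwise

universe u

/-- `M(a) = [[a,1],[-1,0]]`. -/
def M {R : Type*} [CommRing R] (a : R) : Matrix.SpecialLinearGroup (Fin 2) R :=
  ⟨!![a, 1; -1, 0], by simp [Matrix.det_fin_two_of]⟩

theorem coe_M {R : Type*} [CommRing R] (a : R) :
    ((M a : Matrix.SpecialLinearGroup (Fin 2) R) : Matrix (Fin 2) (Fin 2) R) = !![a, 1; -1, 0] := rfl

theorem coe_M_inv {R : Type*} [CommRing R] (a : R) :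
    (((M a)⁻¹ : Matrix.SpecialLinearGroup (Fin 2) R) : Matrix (Fin 2) (Fin 2) R) = !![0, -1; 1, a] := by
  rw [Matrix.SpecialLinearGroup.coe_inv, coe_M, Matrix.adjugate_fin_two_of]
  simp

/-- The generators `M(X^(i+1)) M(X^(i+1))`. -/
noncomputable def gen (R : Type*) [CommRing R] (i : ℕ) : Matrix.SpecialLinearGroup (Fin 2) R[X] :=
  M (X ^ (i + 1)) * M (X ^ (i + 1))

theorem map_M {R S : Type*} [CommRing R] [CommRing S] (f : R →+* S) (a : R) :
    Matrix.SpecialLinearGroup.map f (M a) = M (f a) := by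
  apply Subtype.ext
  rw [Matrix.SpecialLinearGroup.map_apply_coe]
  rw [coe_M, coe_M]
  ext i j
  fin_cases i <;> fin_cases j <;> simp

theorem map_gen {R S : Type*} [CommRing R] [CommRing S] (f : R →+* S) (i : ℕ) :
    Matrix.SpecialLinearGroup.map (Polynomial.mapRingHom f) (gen R i) = gen S i := by
  simp [gen, map_M]

/-- Nonzero vectors. -/
abbrev NV (F : Type*) [Field F] : Type _ := {v : Fin 2 → F[X] // v ≠ 0}

/-- The action of `SL_2(F[X])` on nonzero vectors. -/
@[reducible]
noncomputable def act (F : Type*) [Field F] : MulAction (Matrix.SpecialLinearGroup (Fin 2) F[X]) (NV F) where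
  smul g v := ⟨(g : Matrix (Fin 2) (Fin 2) F[X]).mulVec v.1, by
    intro h
    apply v.2
    have h2 : ((g⁻¹ : Matrix.SpecialLinearGroup (Fin 2) F[X]) : Matrix (Fin 2) (Fin 2) F[X]).mulVec
        ((g : Matrix (Fin 2) (Fin 2) F[X]).mulVec v.1) = 0 := by rw [h, Matrix.mulVec_zero]
    rw [Matrix.mulVec_mulVec, ← Matrix.SpecialLinearGroup.coe_mul, inv_mul_cancel,
      Matrix.SpecialLinearGroup.coe_one, Matrix.one_mulVec] at h2
    exact h2⟩
  one_smul v := by
    apply Subtype.ext
    change ((1 : Matrix.SpecialLinearGroup (Fin 2) F[X]) : Matrix (Fin 2) (Fin 2) F[X]).mulVec v.1 = v.1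
    rw [Matrix.SpecialLinearGroup.coe_one, Matrix.one_mulVec]
  mul_smul g h v := by
    apply Subtype.ext
    change ((g * h : Matrix.SpecialLinearGroup (Fin 2) F[X]) : Matrix (Fin 2) (Fin 2) F[X]).mulVec v.1 =
      (g : Matrix (Fin 2) (Fin 2) F[X]).mulVec ((h : Matrix (Fin 2) (Fin 2) F[X]).mulVec v.1)
    rw [Matrix.SpecialLinearGroup.coe_mul, Matrix.mulVec_mulVec]

theorem deg_nonneg {F : Type*} [Field F] {a : F[X]} (ha : a ≠ 0) : (0 : WithBot ℕ) ≤ a.degree := by
  rw [Polynomial.degree_eq_natDegree ha]; exact_mod_cast Nat.zero_le _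

theorem deg_le_mul {F : Type*} [Field F] {a y : F[X]} (ha : a ≠ 0) :
    y.degree ≤ (a * y).degree := by
  rw [degree_mul]
  calc y.degree = 0 + y.degree := by rw [zero_add]
    _ ≤ a.degree + y.degree := by gcongr; exact deg_nonneg ha

theorem deg_lt_mul {F : Type*} [Field F] {a y : F[X]} (ha : 0 < a.degree) (hy : y ≠ 0) :
    y.degree < (a * y).degree := by
  have ha0 : a ≠ 0 := by rintro rfl; simp at ha
  rw [degree_mul, degree_eq_natDegree ha0, degree_eq_natDegree hy]
  rw [degree_eq_natDegree ha0] at ha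
  norm_cast at ha ⊢
  omega

theorem X_pow_deg_pos {F : Type*} [Field F] (i : ℕ) : 0 < ((X : F[X]) ^ (i + 1)).degree := by
  rw [degree_X_pow]; exact_mod_cast Nat.succ_pos _

theorem diff_ne {F : Type*} [Field F] {i j : ℕ} (h : i ≠ j) :
    0 < ((X : F[X]) ^ (i + 1) - X ^ (j + 1)).degree := by
  rcases lt_or_gt_of_ne h with h | h
  · rw [degree_sub_eq_right_of_degree_lt]
    · exact X_pow_deg_pos j
    · rw [degree_X_pow, degree_X_pow]; exact_mod_cast (show i + 1 < j + 1 by omega)
  · rw [degree_sub_eq_left_of_degree_lt]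
    · exact X_pow_deg_pos i
    · rw [degree_X_pow, degree_X_pow]; exact_mod_cast (show j + 1 < i + 1 by omega)

theorem injective_gen (F : Type u) [Field F] :
    Function.Injective (FreeGroup.lift (fun i : ULift.{u} ℕ => gen F i.down)) := by
  let _ : MulAction (Matrix.SpecialLinearGroup (Fin 2) F[X]) (NV F) := act F
  have hsm : ∀ (g : Matrix.SpecialLinearGroup (Fin 2) F[X]) (v : NV F),
      (g • v).1 = (g : Matrix (Fin 2) (Fin 2) F[X]).mulVec v.1 := fun _ _ => rfl
  have hXne : ∀ i : ℕ, (X : F[X]) ^ (i + 1) ≠ 0 := fun i => pow_ne_zero _ X_ne_zero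
  refine FreeGroup.injective_lift_of_ping_pong (fun i : ULift.{u} ℕ => gen F i.down)
    (α := NV F)
    (fun i => {v | (v.1 0 + X ^ (i.down + 1) * v.1 1).degree < (v.1 1).degree})
    (fun i => {v | (v.1 1 + X ^ (i.down + 1) * v.1 0).degree ≤ (v.1 0).degree})
    ?_ ?_ ?_ ?_ ?_ ?_
  · intro i
    refine ⟨⟨![-X ^ (i.down + 1), 1], ?_⟩, ?_⟩
    · intro h
      have := congrFun h 1
      simp at this
    · simp
  · intro i j hij
    rw [Function.onFun, Set.disjoint_left]
    intro v hv hw
    simp only [Set.mem_ofPred_eq] at hv hw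
    have hij' : i.down ≠ j.down := fun h => hij (ULift.down_injective h)
    have h3 : ((X ^ (i.down + 1) - X ^ (j.down + 1)) * v.1 1).degree < (v.1 1).degree := by
      have : (X ^ (i.down + 1) - X ^ (j.down + 1)) * v.1 1 =
        (v.1 0 + X ^ (i.down + 1) * v.1 1) - (v.1 0 + X ^ (j.down + 1) * v.1 1) := by ring
      rw [this]
      exact lt_of_le_of_lt (degree_sub_le _ _) (max_lt hv hw)
    have h4 := diff_ne (F := F) hij'
    have h5 : ((X : F[X]) ^ (i.down + 1) - X ^ (j.down + 1)) ≠ 0 := by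
      intro h; rw [h] at h4; simp at h4
    exact absurd h3 (not_lt.mpr (deg_le_mul h5))
  · intro i j hij
    rw [Function.onFun, Set.disjoint_left]
    intro v hv hw
    simp only [Set.mem_ofPred_eq] at hv hw
    have hij' : i.down ≠ j.down := fun h => hij (ULift.down_injective h)
    have hx : v.1 0 ≠ 0 := by
      intro h0
      rw [h0] at hv
      simp at hv
      apply v.2
      ext k
      fin_cases k
      · simp [h0]
      · simp [hv]
    have h3 : ((X ^ (i.down + 1) - X ^ (j.down + 1)) * v.1 0).degree ≤ (v.1 0).degree := by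
      have : (X ^ (i.down + 1) - X ^ (j.down + 1)) * v.1 0 =
        (v.1 1 + X ^ (i.down + 1) * v.1 0) - (v.1 1 + X ^ (j.down + 1) * v.1 0) := by ring
      rw [this]
      exact le_trans (degree_sub_le _ _) (max_le hv hw)
    exact absurd h3 (not_le.mpr (deg_lt_mul (diff_ne hij') hx))
  · intro i j
    rw [Set.disjoint_left]
    intro v hv hw
    simp only [Set.mem_ofPred_eq] at hv hw
    have hy : v.1 1 ≠ 0 := by
      intro h0
      rw [h0] at hv
      simp at hv
    -- deg x = deg (a y) 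
    have h1 : (v.1 0 + X ^ (i.down + 1) * v.1 1).degree < (X ^ (i.down + 1) * v.1 1).degree :=
      lt_of_lt_of_le hv (deg_le_mul (hXne _))
    have h2 : (v.1 0).degree = (X ^ (i.down + 1) * v.1 1).degree := by
      have : v.1 0 = (v.1 0 + X ^ (i.down + 1) * v.1 1) - X ^ (i.down + 1) * v.1 1 := by ring
      rw [this, degree_sub_eq_right_of_degree_lt h1]
    have hx : v.1 0 ≠ 0 := by
      intro h0
      rw [h0, degree_zero] at h2
      have := (degree_eq_bot.mp h2.symm)
      exact mul_ne_zero (hXne _) hy this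
    have h3 : (v.1 1).degree ≤ (v.1 0).degree := by rw [h2]; exact deg_le_mul (hXne _)
    have h4 : (v.1 0).degree < (X ^ (j.down + 1) * v.1 0).degree := deg_lt_mul (X_pow_deg_pos _) hx
    have h5 : (v.1 1 + X ^ (j.down + 1) * v.1 0).degree = (X ^ (j.down + 1) * v.1 0).degree :=
      degree_add_eq_right_of_degree_lt (lt_of_le_of_lt h3 h4)
    rw [h5] at hw
    exact absurd hw (not_le.mpr h4)
  · rintro i _ ⟨v, hv, rfl⟩
    simp only [Set.mem_compl_iff, Set.mem_ofPred_eq, not_le] at hv
    simp only [Set.mem_ofPred_eq]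
    rw [gen, mul_smul]
    simp only [hsm, coe_M]
    simp only [Matrix.mulVec, dotProduct, Fin.sum_univ_two, Matrix.of_apply, Matrix.cons_val_zero, Matrix.cons_val_one]
    have e1 : ((X : F[X]) ^ (i.down + 1) * (X ^ (i.down + 1) * v.1 0 + 1 * v.1 1) + 1 * (-1 * v.1 0 + 0 * v.1 1) +
        X ^ (i.down + 1) * (-1 * (X ^ (i.down + 1) * v.1 0 + 1 * v.1 1) + 0 * (-1 * v.1 0 + 0 * v.1 1))) = - v.1 0 := by
      ring
    have e2 : (-1 * ((X : F[X]) ^ (i.down + 1) * v.1 0 + 1 * v.1 1) + 0 * (-1 * v.1 0 + 0 * v.1 1)) =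
        -(v.1 1 + X ^ (i.down + 1) * v.1 0) := by ring
    rw [e1, e2, degree_neg, degree_neg]
    exact hv
  · rintro i _ ⟨v, hv, rfl⟩
    simp only [Set.mem_compl_iff, Set.mem_ofPred_eq, not_lt] at hv
    simp only [Set.mem_ofPred_eq, Pi.inv_apply]
    rw [gen, _root_.mul_inv_rev, mul_smul]
    simp only [hsm, coe_M_inv]
    simp only [Matrix.mulVec, dotProduct, Fin.sum_univ_two, Matrix.of_apply, Matrix.cons_val_zero, Matrix.cons_val_one]
    have e1 : (1 * (0 * v.1 0 + -1 * v.1 1) + (X : F[X]) ^ (i.down + 1) * (1 * v.1 0 + X ^ (i.down + 1) * v.1 1) +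
        X ^ (i.down + 1) * (0 * (0 * v.1 0 + -1 * v.1 1) + -1 * (1 * v.1 0 + X ^ (i.down + 1) * v.1 1))) = - v.1 1 := by
      ring
    have e2 : (0 * (0 * v.1 0 + -1 * v.1 1) + -1 * (1 * v.1 0 + (X : F[X]) ^ (i.down + 1) * v.1 1)) =
        -(v.1 0 + X ^ (i.down + 1) * v.1 1) := by ring
    rw [e1, e2, degree_neg, degree_neg]
    exact hv

/-- The degree bound for a word evaluated at the generic generators. -/
noncomputable def bound (w : FreeGroup ℕ) : ℕ :=
  ∑ i, ∑ j, ((FreeGroup.lift (gen ℤ) w : Matrix.SpecialLinearGroup (Fin 2) ℤ[X]) i j).natDegree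

theorem exists_ne_one (w : FreeGroup ℕ) (hw : w ≠ 1) (F : Type u) [Field F] [Fintype F]
    (hF : bound w < Fintype.card F) :
    ∃ f : ℕ → Matrix.SpecialLinearGroup (Fin 2) F, FreeGroup.lift f w ≠ 1 := by
  classical
  have h1 : FreeGroup.lift (gen F) w ≠ 1 := by
    intro h
    apply hw
    have hinj := injective_gen F
    let e : FreeGroup ℕ ≃* FreeGroup (ULift.{u} ℕ) := FreeGroup.freeGroupCongr Equiv.ulift.symm
    have h2 : FreeGroup.lift (fun i : ULift.{u} ℕ => gen F i.down) (e w) = 1 := by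
      have : (FreeGroup.lift (fun i : ULift.{u} ℕ => gen F i.down)).comp e.toMonoidHom =
          FreeGroup.lift (gen F) := by
        ext i : 1
        simp [e]
      have h3 := DFunLike.congr_fun this w
      rw [← h] 
      exact h3
    have h3 : e w = 1 := hinj (by rw [h2, map_one])
    exact (map_eq_one_iff e e.injective).mp h3
  set P : Matrix.SpecialLinearGroup (Fin 2) F[X] := FreeGroup.lift (gen F) w with hP
  have hmap : P = Matrix.SpecialLinearGroup.map (Polynomial.mapRingHom (Int.castRingHom F))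
      (FreeGroup.lift (gen ℤ) w) := by
    have : (Matrix.SpecialLinearGroup.map (Polynomial.mapRingHom (Int.castRingHom F))).comp
        (FreeGroup.lift (gen ℤ)) = FreeGroup.lift (gen F) := by
      ext i : 1
      simp [map_gen]
    rw [hP, ← this]
    rfl
  have hdeg : ∀ i j, (P i j).natDegree ≤ bound w := by
    intro i j
    rw [hmap]
    refine le_trans (b := ((FreeGroup.lift (gen ℤ) w : Matrix.SpecialLinearGroup (Fin 2) ℤ[X]) i j).natDegree) ?_ ?_
    · exact Polynomial.natDegree_map_le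
    · unfold bound
      refine le_trans (b := ∑ j', ((FreeGroup.lift (gen ℤ) w : Matrix.SpecialLinearGroup (Fin 2) ℤ[X]) i j').natDegree) ?_ ?_
      · exact Finset.single_le_sum (f := fun j' => ((FreeGroup.lift (gen ℤ) w : Matrix.SpecialLinearGroup (Fin 2) ℤ[X]) i j').natDegree)
          (fun _ _ => Nat.zero_le _) (Finset.mem_univ j)
      · exact Finset.single_le_sum (f := fun i' => ∑ j', ((FreeGroup.lift (gen ℤ) w : Matrix.SpecialLinearGroup (Fin 2) ℤ[X]) i' j').natDegree)
          (fun _ _ => Nat.zero_le _) (Finset.mem_univ i)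
  obtain ⟨i, j, hij⟩ : ∃ i j, P i j ≠ (1 : Matrix (Fin 2) (Fin 2) F[X]) i j := by
    by_contra hcon
    push Not at hcon
    exact h1 (Matrix.SpecialLinearGroup.ext _ _ (fun i j => by rw [hcon i j]; rfl))
  -- a point where they differ
  have hD : P i j - (1 : Matrix (Fin 2) (Fin 2) F[X]) i j ≠ 0 := sub_ne_zero.mpr hij
  have hDdeg : (P i j - (1 : Matrix (Fin 2) (Fin 2) F[X]) i j).natDegree ≤ bound w := by
    refine le_trans (Polynomial.natDegree_sub_le _ _) (max_le (hdeg i j) ?_)
    rw [Matrix.one_apply]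
    split_ifs <;> simp
  obtain ⟨t, ht⟩ : ∃ t : F, (P i j - (1 : Matrix (Fin 2) (Fin 2) F[X]) i j).eval t ≠ 0 := by
    by_contra hcon
    push Not at hcon
    apply hD
    apply Polynomial.eq_zero_of_natDegree_lt_card_of_eval_eq_zero' _ Finset.univ (fun t _ => hcon t)
    rw [Finset.card_univ]
    omega
  refine ⟨fun k => Matrix.SpecialLinearGroup.map (Polynomial.evalRingHom t) (gen F k), ?_⟩
  have hev : FreeGroup.lift (fun k => Matrix.SpecialLinearGroup.map (Polynomial.evalRingHom t) (gen F k)) w =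
      Matrix.SpecialLinearGroup.map (Polynomial.evalRingHom t) P := by
    have : (Matrix.SpecialLinearGroup.map (Polynomial.evalRingHom t)).comp
        (FreeGroup.lift (gen F)) = FreeGroup.lift (fun k => Matrix.SpecialLinearGroup.map (Polynomial.evalRingHom t) (gen F k)) := by
      ext i : 1
      simp
    rw [hP, ← this]
    rfl
  rw [hev]
  intro hcon
  apply ht
  have := congrArg (fun A : Matrix.SpecialLinearGroup (Fin 2) F => A i j) hcon
  simp only [Matrix.SpecialLinearGroup.map_apply_coe, RingHom.mapMatrix_apply, Matrix.map_apply,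
    Polynomial.coe_evalRingHom] at this
  rw [Polynomial.eval_sub, this, Matrix.SpecialLinearGroup.coe_one, Matrix.one_apply, Matrix.one_apply]
  split_ifs <;> simp

/-- If `[w, x_n]` is not a law of `G` then `w` is not a law of `G/Z(G)`. -/
theorem exists_not_mem_center {G : Type*} [Group G] (w : FreeGroup ℕ) (n : ℕ)
    (h : ∃ f : ℕ → G, FreeGroup.lift f (w * FreeGroup.of n * w⁻¹ * (FreeGroup.of n)⁻¹) ≠ 1) :
    ∃ f : ℕ → G, FreeGroup.lift f w ∉ Subgroup.center G := by
  obtain ⟨f, hf⟩ := h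
  refine ⟨f, fun hc => hf ?_⟩
  rw [Subgroup.mem_center_iff] at hc
  have := hc (f n)
  simp only [map_mul, map_inv, FreeGroup.lift_apply_of]
  rw [← this]
  group

/-- For every nontrivial `w` there is a generator which does not commute with it. -/
theorem exists_comm_ne_one (w : FreeGroup ℕ) (hw : w ≠ 1) :
    ∃ n : ℕ, w * FreeGroup.of n * w⁻¹ * (FreeGroup.of n)⁻¹ ≠ 1 := by
  classical
  obtain ⟨n, hn⟩ := Infinite.exists_notMem_finset ((w.toWord.map Prod.fst).toFinset)
  simp only [List.mem_toFinset, List.mem_map, not_exists, not_and] at hn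
  refine ⟨n, fun h => ?_⟩
  have hc : w * FreeGroup.of n = FreeGroup.of n * w := by
    have := mul_inv_eq_one.mp h
    rw [mul_inv_eq_iff_eq_mul] at this
    exact this
  have hred : FreeGroup.IsReduced w.toWord := FreeGroup.isReduced_toWord
  have h1 : FreeGroup.IsReduced (w.toWord ++ [(n, true)]) := by
    rw [FreeGroup.IsReduced, List.isChain_append]
    refine ⟨hred, List.isChain_singleton _, ?_⟩
    intro x hx y hy hxy
    exfalso
    simp only [List.head?_cons, Option.mem_def, Option.some.injEq] at hy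
    subst hy
    exact hn x (List.mem_of_mem_getLast? hx) hxy
  have h2 : FreeGroup.IsReduced ((n, true) :: w.toWord) := by
    rw [FreeGroup.IsReduced, List.isChain_cons]
    refine ⟨?_, hred⟩
    intro y hy hxy
    exfalso
    exact hn y (List.mem_of_mem_head? hy) hxy.symm
  have e1 : (w * FreeGroup.of n).toWord = w.toWord ++ [(n, true)] := by
    rw [FreeGroup.toWord_mul, FreeGroup.toWord_of, h1.reduce_eq]
  have e2 : (FreeGroup.of n * w).toWord = (n, true) :: w.toWord := by
    rw [FreeGroup.toWord_mul, FreeGroup.toWord_of, List.singleton_append, h2.reduce_eq]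
  rw [hc, e2] at e1
  -- w.toWord is nonempty
  have hne : w.toWord ≠ [] := by
    rw [Ne, FreeGroup.toWord_eq_nil_iff]; exact hw
  obtain ⟨a, l, hl⟩ := List.exists_cons_of_ne_nil hne
  rw [hl] at e1
  simp only [List.cons_append, List.cons.injEq] at e1
  exact hn a (by rw [hl]; exact List.mem_cons_self) (by rw [← e1.1])

/-- Uniform bound: a nontrivial word is not central-valued on `SL_2(F)` for large `F`. -/
theorem exists_bound_not_mem_center (w : FreeGroup ℕ) (hw : w ≠ 1) :
    ∃ N : ℕ, ∀ (F : Type u) [Field F] [Fintype F], N ≤ Fintype.card F →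
      ∃ f : ℕ → Matrix.SpecialLinearGroup (Fin 2) F,
        FreeGroup.lift f w ∉ Subgroup.center (Matrix.SpecialLinearGroup (Fin 2) F) := by
  obtain ⟨n, hn⟩ := exists_comm_ne_one w hw
  refine ⟨bound (w * FreeGroup.of n * w⁻¹ * (FreeGroup.of n)⁻¹) + 1, fun F _ _ hF => ?_⟩
  exact exists_not_mem_center w n (exists_ne_one _ hn F (by omega))

end CfsgLib.LawSL2
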