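import Mathlib
import Cfsg.Agent.LibLawSL2

set_option autoImplicit false

namespace CfsgLib.LawAlt

/-- The doubling homomorphism `σ ↦ σ ⊕ σ` -/
def dbl (α : Type*) : Equiv.Perm α →* Equiv.Perm (α ⊕ α) where
  toFun σ := Equiv.sumCongr σ σ
  map_one' := by ext x; cases x <;> rfl
  map_mul' σ τ := by ext x; cases x <;> rfl

theorem dbl_injective (α : Type*) : Function.Injective (dbl α) := by
  intro σ τ h
  ext x
  have := DFunLike.congr_fun h (Sum.inl x)
  exact Sum.inl_injective this

theorem sign_dbl {α : Type*} [Fintype α] [DecidableEq α] (σ : Equiv.Perm α) :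
    Equiv.Perm.sign (dbl α σ) = 1 := by
  have : Equiv.Perm.sign (dbl α σ) = Equiv.Perm.sign σ * Equiv.Perm.sign σ := Equiv.Perm.sign_sumCongr σ σ
  rw [this, Int.units_mul_self]

/-- A finite group embeds in all large alternating groups. -/
theorem exists_embed (G : Type*) [Group G] [Finite G] :
    ∀ n : ℕ, 2 * Nat.card G ≤ n → ∃ φ : G →* alternatingGroup (Fin n), Function.Injective φ := by
  classical
  have := Fintype.ofFinite G
  intro n hn
  have hcard : Fintype.card (G ⊕ G) ≤ Fintype.card (Fin n) := by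
    rw [Fintype.card_sum, Fintype.card_fin, ← Nat.card_eq_fintype_card]; omega
  obtain ⟨ι⟩ := Function.Embedding.nonempty_of_card_le hcard
  let ψ : G →* Equiv.Perm (Fin n) :=
    (Equiv.Perm.viaEmbeddingHom ι).comp ((dbl G).comp (MulAction.toPermHom G G))
  have hψ : Function.Injective ψ :=
    (Equiv.Perm.viaEmbeddingHom_injective ι).comp ((dbl_injective G).comp MulAction.toPerm_injective)
  have hsign : ∀ g, ψ g ∈ alternatingGroup (Fin n) := by
    intro g
    rw [Equiv.Perm.mem_alternatingGroup]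
    simp only [ψ, MonoidHom.comp_apply, Equiv.Perm.viaEmbeddingHom_apply, Equiv.Perm.viaEmbedding]
    rw [Equiv.Perm.sign_extendDomain]
    exact sign_dbl _
  refine ⟨ψ.codRestrict _ hsign, ?_⟩
  intro a b hab
  exact hψ (congrArg Subtype.val hab)

/-- A nontrivial word is not a law in large alternating groups. -/
theorem exists_bound (w : FreeGroup ℕ) (hw : w ≠ 1) :
    ∃ N : ℕ, ∀ n : ℕ, N ≤ n → ∃ f : ℕ → alternatingGroup (Fin n), FreeGroup.lift f w ≠ 1 := by
  obtain ⟨p, hp, hpp⟩ := Nat.exists_infinite_primes (CfsgLib.LawSL2.bound w + 1)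
  have : Fact p.Prime := ⟨hpp⟩
  obtain ⟨f, hf⟩ := CfsgLib.LawSL2.exists_ne_one w hw (ZMod p) (by rw [ZMod.card]; omega)
  refine ⟨2 * Nat.card (Matrix.SpecialLinearGroup (Fin 2) (ZMod p)), fun n hn => ?_⟩
  obtain ⟨φ, hφ⟩ := exists_embed _ n hn
  refine ⟨fun i => φ (f i), ?_⟩
  have : FreeGroup.lift (fun i => φ (f i)) w = φ (FreeGroup.lift f w) := by
    have h : φ.comp (FreeGroup.lift f) = FreeGroup.lift (fun i => φ (f i)) := by
      ext i : 1
      simp
    rw [← h]
    rfl
  rw [this]
  intro h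
  exact hf ((map_eq_one_iff φ hφ).mp h)

end CfsgLib.LawAlt
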