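import Cfsg.Agent.LibLawSL2

set_option autoImplicit false

namespace CfsgLib.LawPt

open Polynomial Matrix CfsgLib.LawSL2
open scoped MatrixGroups Pointwise

universe u

/-- Evaluate the generic non-law at a point of a given large finite set. -/
theorem exists_point (w : FreeGroup ℕ) (hw : w ≠ 1) (F : Type u) [Field F] (S : Finset F)
    (hS : bound w < S.card) :
    ∃ t ∈ S, FreeGroup.lift (fun k : ℕ => (M (t ^ (k + 1)) * M (t ^ (k + 1)) :
      Matrix.SpecialLinearGroup (Fin 2) F)) w ≠ 1 := by
  classical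
  have h1 : FreeGroup.lift (gen F) w ≠ 1 := by
    intro h
    apply hw
    have hinj := injective_gen F
    let e : FreeGroup ℕ ≃* FreeGroup (ULift.{u} ℕ) := FreeGroup.freeGroupCongr Equiv.ulift.symm
    have h2 : FreeGroup.lift (fun i : ULift.{u} ℕ => gen F i.down) (e w) = 1 := by
      have : (FreeGroup.lift (fun i : ULift.{u} ℕ => gen F i.down)).comp e.toMonoidHom =
          FreeGroup.lift (gen F) := by
        ext i : 1
        simp [e]
      have h3 := DFunLike.congr_fun this w
      rw [← h] 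
      exact h3
    have h3 : e w = 1 := hinj (by rw [h2, map_one])
    exact (map_eq_one_iff e e.injective).mp h3
  set P : Matrix.SpecialLinearGroup (Fin 2) F[X] := FreeGroup.lift (gen F) w with hP
  have hmap : P = Matrix.SpecialLinearGroup.map (Polynomial.mapRingHom (Int.castRingHom F))
      (FreeGroup.lift (gen ℤ) w) := by
    have : (Matrix.SpecialLinearGroup.map (Polynomial.mapRingHom (Int.castRingHom F))).comp
        (FreeGroup.lift (gen ℤ)) = FreeGroup.lift (gen F) := by
      ext i : 1
      simp [map_gen]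
    rw [hP, ← this]
    rfl
  have hdeg : ∀ i j, (P i j).natDegree ≤ bound w := by
    intro i j
    rw [hmap]
    refine le_trans (b := ((FreeGroup.lift (gen ℤ) w : Matrix.SpecialLinearGroup (Fin 2) ℤ[X]) i j).natDegree) ?_ ?_
    · exact Polynomial.natDegree_map_le
    · unfold bound
      refine le_trans (b := ∑ j', ((FreeGroup.lift (gen ℤ) w : Matrix.SpecialLinearGroup (Fin 2) ℤ[X]) i j').natDegree) ?_ ?_
      · exact Finset.single_le_sum (f := fun j' => ((FreeGroup.lift (gen ℤ) w : Matrix.SpecialLinearGroup (Fin 2) ℤ[X]) i j').natDegree)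
          (fun _ _ => Nat.zero_le _) (Finset.mem_univ j)
      · exact Finset.single_le_sum (f := fun i' => ∑ j', ((FreeGroup.lift (gen ℤ) w : Matrix.SpecialLinearGroup (Fin 2) ℤ[X]) i' j').natDegree)
          (fun _ _ => Nat.zero_le _) (Finset.mem_univ i)
  obtain ⟨i, j, hij⟩ : ∃ i j, P i j ≠ (1 : Matrix (Fin 2) (Fin 2) F[X]) i j := by
    by_contra hcon
    push Not at hcon
    exact h1 (Matrix.SpecialLinearGroup.ext _ _ (fun i j => by rw [hcon i j]; rfl))
  -- a point where they differ
  have hD : P i j - (1 : Matrix (Fin 2) (Fin 2) F[X]) i j ≠ 0 := sub_ne_zero.mpr hij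
  have hDdeg : (P i j - (1 : Matrix (Fin 2) (Fin 2) F[X]) i j).natDegree ≤ bound w := by
    refine le_trans (Polynomial.natDegree_sub_le _ _) (max_le (hdeg i j) ?_)
    rw [Matrix.one_apply]
    split_ifs <;> simp
  obtain ⟨t, htS, ht⟩ : ∃ t ∈ S, (P i j - (1 : Matrix (Fin 2) (Fin 2) F[X]) i j).eval t ≠ 0 := by
    by_contra hcon
    push Not at hcon
    apply hD
    apply Polynomial.eq_zero_of_natDegree_lt_card_of_eval_eq_zero' _ S (fun t ht => hcon t ht)
    omega
  refine ⟨t, htS, ?_⟩
  have hfun : (fun k : ℕ => (M (t ^ (k + 1)) * M (t ^ (k + 1)) : Matrix.SpecialLinearGroup (Fin 2) F)) =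
      fun k => Matrix.SpecialLinearGroup.map (Polynomial.evalRingHom t) (gen F k) := by
    funext k
    rw [gen, map_mul, map_M]
    simp
  rw [hfun]
  have hev : FreeGroup.lift (fun k => Matrix.SpecialLinearGroup.map (Polynomial.evalRingHom t) (gen F k)) w =
      Matrix.SpecialLinearGroup.map (Polynomial.evalRingHom t) P := by
    have : (Matrix.SpecialLinearGroup.map (Polynomial.evalRingHom t)).comp
        (FreeGroup.lift (gen F)) = FreeGroup.lift (fun k => Matrix.SpecialLinearGroup.map (Polynomial.evalRingHom t) (gen F k)) := by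
      ext i : 1
      simp
    rw [hP, ← this]
    rfl
  rw [hev]
  intro hcon
  apply ht
  have := congrArg (fun A : Matrix.SpecialLinearGroup (Fin 2) F => A i j) hcon
  simp only [Matrix.SpecialLinearGroup.map_apply_coe, RingHom.mapMatrix_apply, Matrix.map_apply,
    Polynomial.coe_evalRingHom] at this
  rw [Polynomial.eval_sub, this, Matrix.SpecialLinearGroup.coe_one, Matrix.one_apply, Matrix.one_apply]
  split_ifs <;> simp

/-! ### abstract non-law calculus -/

theorem lift_map {G H : Type*} [Group G] [Group H] (φ : G →* H) (f : ℕ → G) (w : FreeGroup ℕ) :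
    FreeGroup.lift (fun i => φ (f i)) w = φ (FreeGroup.lift f w) := by
  have h : φ.comp (FreeGroup.lift f) = FreeGroup.lift (fun i => φ (f i)) := by
    ext i : 1
    simp
  rw [← h]
  rfl

/-- `w` is not a law of `H`. -/
def NL (w : FreeGroup ℕ) (H : Type*) [Group H] : Prop := ∃ f : ℕ → H, FreeGroup.lift f w ≠ 1

/-- `w` is not a law of the commutator subgroup of `K`. -/
def NLC (w : FreeGroup ℕ) (K : Type*) [Group K] : Prop :=
  ∃ f : ℕ → K, (∀ i, f i ∈ commutator K) ∧ FreeGroup.lift f w ≠ 1

theorem NL.map {w : FreeGroup ℕ} {H K : Type*} [Group H] [Group K] (h : NL w H) (φ : H →* K)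
    (hφ : Function.Injective φ) : NL w K := by
  obtain ⟨f, hf⟩ := h
  exact ⟨fun i => φ (f i), fun h => hf ((map_eq_one_iff φ hφ).mp (by rw [← lift_map]; exact h))⟩

theorem NLC.map {w : FreeGroup ℕ} {H K : Type*} [Group H] [Group K] (h : NLC w H) (φ : H →* K)
    (hφ : Function.Injective φ) : NLC w K := by
  obtain ⟨f, hf1, hf⟩ := h
  refine ⟨fun i => φ (f i), fun i => ?_, fun h => hf ((map_eq_one_iff φ hφ).mp (by rw [← lift_map]; exact h))⟩
  have h1 : φ (f i) ∈ (commutator H).map φ := Subgroup.mem_map_of_mem φ (hf1 i)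
  rw [commutator_def, Subgroup.map_commutator] at h1
  exact Subgroup.commutator_mono le_top le_top h1

theorem NLC.nl {w : FreeGroup ℕ} {H : Type*} [Group H] (h : NLC w H) : NL w H := by
  obtain ⟨f, _, hf⟩ := h
  exact ⟨f, hf⟩

theorem NLC.sub {w : FreeGroup ℕ} {H : Type*} [Group H] (h : NLC w H) (S : Subgroup H)
    (hS : commutator H ≤ S) : NL w S := by
  obtain ⟨f, hf1, hf⟩ := h
  refine ⟨fun i => ⟨f i, hS (hf1 i)⟩, fun h => hf ?_⟩
  have := lift_map S.subtype (fun i => (⟨f i, hS (hf1 i)⟩ : S)) w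
  rw [h, map_one] at this
  exact this

/-- If `[w,x_n]` is not a law of `H` then `w` is not a law of `H/Z(H)`. -/
theorem NL.quot {w : FreeGroup ℕ} {n : ℕ} {H : Type*} [Group H]
    (h : NL (w * FreeGroup.of n * w⁻¹ * (FreeGroup.of n)⁻¹) H) : NL w (H ⧸ Subgroup.center H) := by
  obtain ⟨f, hf⟩ := exists_not_mem_center w n h
  refine ⟨fun i => QuotientGroup.mk' (Subgroup.center H) (f i), fun h => hf ?_⟩
  rw [lift_map] at h
  exact (QuotientGroup.eq_one_iff _).mp h

end CfsgLib.LawPt
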