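import Cfsg.Agent.EqBase
import Cfsg.Agent.LibLawPt

set_option autoImplicit false

namespace CfsgLib.LawEmb

open Matrix CfsgLib.LawSL2 CfsgLib.LawPt
open scoped MatrixGroups Pointwise commutatorElement

universe u

/-- Block diagonal homomorphism. -/
def blk (ι κ : Type*) [Fintype ι] [DecidableEq ι] [Fintype κ] [DecidableEq κ] (F : Type*) [CommRing F] :
    GL ι F × GL κ F →* GL (ι ⊕ κ) F where
  toFun p := ⟨fromBlocks (p.1 : Matrix ι ι F) 0 0 (p.2 : Matrix κ κ F),
    fromBlocks ((p.1⁻¹ : GL ι F) : Matrix ι ι F) 0 0 ((p.2⁻¹ : GL κ F) : Matrix κ κ F),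
    by
      rw [fromBlocks_multiply, ← Units.val_mul, ← Units.val_mul]
      simp,
    by
      rw [fromBlocks_multiply, ← Units.val_mul, ← Units.val_mul]
      simp⟩
  map_one' := by
    apply Units.ext
    simp
  map_mul' p q := by
    apply Units.ext
    simp [fromBlocks_multiply]

theorem coe_blk {ι κ : Type*} [Fintype ι] [DecidableEq ι] [Fintype κ] [DecidableEq κ] {F : Type*} [CommRing F]
    (p : GL ι F × GL κ F) : ((blk ι κ F p : GL (ι ⊕ κ) F) : Matrix (ι ⊕ κ) (ι ⊕ κ) F) =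
      fromBlocks (p.1 : Matrix ι ι F) 0 0 (p.2 : Matrix κ κ F) := rfl

/-- embedding in the first block -/
def blkL (ι κ : Type*) [Fintype ι] [DecidableEq ι] [Fintype κ] [DecidableEq κ] (F : Type*) [CommRing F] :
    GL ι F →* GL (ι ⊕ κ) F := (blk ι κ F).comp (MonoidHom.inl _ _)

theorem blkL_injective (ι κ : Type*) [Fintype ι] [DecidableEq ι] [Fintype κ] [DecidableEq κ] (F : Type*)
    [CommRing F] : Function.Injective (blkL ι κ F) := by
  intro a b h
  have h1 := congrArg (fun g : GL (ι ⊕ κ) F => (g : Matrix (ι ⊕ κ) (ι ⊕ κ) F)) h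
  simp only [blkL, MonoidHom.comp_apply, coe_blk, MonoidHom.inl_apply] at h1
  exact Units.ext (fromBlocks_inj.mp h1).1

/-- reindexing -/
def reidx {ι κ : Type*} [Fintype ι] [DecidableEq ι] [Fintype κ] [DecidableEq κ] (F : Type*) [CommRing F]
    (e : ι ≃ κ) : GL ι F ≃* GL κ F := Units.mapEquiv (reindexAlgEquiv F F e).toMulEquiv

/-- inverse transpose -/
def invT (ι : Type*) [Fintype ι] [DecidableEq ι] (F : Type*) [CommRing F] : GL ι F →* GL ι F where
  toFun g := ⟨((g⁻¹ : GL ι F) : Matrix ι ι F)ᵀ, (g : Matrix ι ι F)ᵀ, by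
      rw [← transpose_mul, ← Units.val_mul]; simp, by
      rw [← transpose_mul, ← Units.val_mul]; simp⟩
  map_one' := by apply Units.ext; simp
  map_mul' a b := by
    apply Units.ext
    simp only [_root_.mul_inv_rev, Units.val_mul, transpose_mul]

theorem coe_invT {ι : Type*} [Fintype ι] [DecidableEq ι] {F : Type*} [CommRing F] (g : GL ι F) :
    ((invT ι F g : GL ι F) : Matrix ι ι F) = ((g⁻¹ : GL ι F) : Matrix ι ι F)ᵀ := rfl

/-- `g ↦ diag(g, g^{-T})`. -/
def hyp (ι : Type*) [Fintype ι] [DecidableEq ι] (F : Type*) [CommRing F] : GL ι F →* GL (ι ⊕ ι) F :=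
  (blk ι ι F).comp ((MonoidHom.id _).prod (invT ι F))

theorem coe_hyp {ι : Type*} [Fintype ι] [DecidableEq ι] {F : Type*} [CommRing F] (g : GL ι F) :
    ((hyp ι F g : GL (ι ⊕ ι) F) : Matrix (ι ⊕ ι) (ι ⊕ ι) F) =
      fromBlocks (g : Matrix ι ι F) 0 0 ((g⁻¹ : GL ι F) : Matrix ι ι F)ᵀ := rfl

theorem hyp_injective (ι : Type*) [Fintype ι] [DecidableEq ι] (F : Type*) [CommRing F] :
    Function.Injective (hyp ι F) := by
  intro a b h
  have h1 := congrArg (fun g : GL (ι ⊕ ι) F => (g : Matrix (ι ⊕ ι) (ι ⊕ ι) F)) h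
  simp only [coe_hyp] at h1
  exact Units.ext (fromBlocks_inj.mp h1).1

/-- the hyperbolic pairing is preserved -/
theorem hyp_pair {ι : Type*} [Fintype ι] [DecidableEq ι] {F : Type*} [CommRing F] (g : GL ι F)
    (x y : ι → F) : ((g : Matrix ι ι F) *ᵥ x) ⬝ᵥ ((((g⁻¹ : GL ι F) : Matrix ι ι F)ᵀ) *ᵥ y) = x ⬝ᵥ y := by
  rw [mulVec_transpose, ← dotProduct_comm, ← dotProduct_mulVec, mulVec_mulVec, ← Units.val_mul,
    inv_mul_cancel, Units.val_one, one_mulVec, dotProduct_comm]

theorem hyp_mulVec {ι : Type*} [Fintype ι] [DecidableEq ι] {F : Type*} [CommRing F] (g : GL ι F)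
    (v : ι ⊕ ι → F) : ((hyp ι F g : GL (ι ⊕ ι) F) : Matrix (ι ⊕ ι) (ι ⊕ ι) F) *ᵥ v =
      Sum.elim ((g : Matrix ι ι F) *ᵥ (v ∘ Sum.inl)) ((((g⁻¹ : GL ι F) : Matrix ι ι F)ᵀ) *ᵥ (v ∘ Sum.inr)) := by
  rw [coe_hyp, fromBlocks_mulVec]
  simp

/-! ### Elements of the commutator subgroup of `GL_2` -/

def dg {F : Type*} [CommRing F] (a b : Fˣ) : GL (Fin 2) F :=
  ⟨!![(a : F), 0; 0, (b : F)], !![((a⁻¹ : Fˣ) : F), 0; 0, ((b⁻¹ : Fˣ) : F)], by
    ext i j; fin_cases i <;> fin_cases j <;> simp [Matrix.mul_apply, Fin.sum_univ_two], by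
    ext i j; fin_cases i <;> fin_cases j <;> simp [Matrix.mul_apply, Fin.sum_univ_two]⟩

def Um {F : Type*} [CommRing F] (x : F) : GL (Fin 2) F :=
  ⟨!![1, x; 0, 1], !![1, -x; 0, 1], by
    ext i j; fin_cases i <;> fin_cases j <;> simp [Matrix.mul_apply, Fin.sum_univ_two], by
    ext i j; fin_cases i <;> fin_cases j <;> simp [Matrix.mul_apply, Fin.sum_univ_two]⟩

def Lm {F : Type*} [CommRing F] (x : F) : GL (Fin 2) F :=
  ⟨!![1, 0; x, 1], !![1, 0; -x, 1], by
    ext i j; fin_cases i <;> fin_cases j <;> simp [Matrix.mul_apply, Fin.sum_univ_two], by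
    ext i j; fin_cases i <;> fin_cases j <;> simp [Matrix.mul_apply, Fin.sum_univ_two]⟩

theorem Um_mem {F : Type*} [Field F] (u : Fˣ) (hu : u ≠ 1) (x : F) : Um x ∈ commutator (GL (Fin 2) F) := by
  have h1 : ((u : F) - 1) ≠ 0 := fun h => hu (Units.ext (by rw [Units.val_one]; exact sub_eq_zero.mp h))
  have h2 : Um x = ⁅dg u 1, Um (x / ((u : F) - 1))⁆ := by
    rw [commutatorElement_def, eq_mul_inv_iff_mul_eq, eq_mul_inv_iff_mul_eq]
    apply Units.ext
    simp only [Units.val_mul, Um, dg]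
    ext i j
    fin_cases i <;> fin_cases j <;> simp [Matrix.mul_apply, Fin.sum_univ_two]
    field_simp
    ring
  rw [h2, commutator_def]
  exact Subgroup.commutator_mem_commutator (Subgroup.mem_top _) (Subgroup.mem_top _)

theorem Lm_mem {F : Type*} [Field F] (u : Fˣ) (hu : u ≠ 1) (x : F) : Lm x ∈ commutator (GL (Fin 2) F) := by
  have h1 : ((u : F) - 1) ≠ 0 := fun h => hu (Units.ext (by rw [Units.val_one]; exact sub_eq_zero.mp h))
  have h2 : Lm x = ⁅dg 1 u, Lm (x / ((u : F) - 1))⁆ := by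
    rw [commutatorElement_def, eq_mul_inv_iff_mul_eq, eq_mul_inv_iff_mul_eq]
    apply Units.ext
    simp only [Units.val_mul, Lm, dg]
    ext i j
    fin_cases i <;> fin_cases j <;> simp [Matrix.mul_apply, Fin.sum_univ_two]
    field_simp
    ring
  rw [h2, commutator_def]
  exact Subgroup.commutator_mem_commutator (Subgroup.mem_top _) (Subgroup.mem_top _)

theorem toGL_M_mem {F : Type*} [Field F] (u : Fˣ) (hu : u ≠ 1) (a : F) :
    Matrix.SpecialLinearGroup.toGL (M a) ∈ commutator (GL (Fin 2) F) := by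
  have h : Matrix.SpecialLinearGroup.toGL (M a) = Um (-a) * (Um 1 * Lm (-1) * Um 1) := by
    apply Units.ext
    simp only [Units.val_mul, Lm, Um]
    change ((M a : Matrix.SpecialLinearGroup (Fin 2) F) : Matrix (Fin 2) (Fin 2) F) = _
    rw [coe_M]
    ext i j
    fin_cases i <;> fin_cases j <;> simp [Matrix.mul_apply, Fin.sum_univ_two]
  rw [h]
  exact mul_mem (Um_mem u hu _) (mul_mem (mul_mem (Um_mem u hu _) (Lm_mem u hu _)) (Um_mem u hu _))

theorem toGL_injective (ι : Type*) [Fintype ι] [DecidableEq ι] (F : Type*) [CommRing F] :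
    Function.Injective (Matrix.SpecialLinearGroup.toGL : Matrix.SpecialLinearGroup ι F →* GL ι F) := by
  intro a b h
  exact Subtype.ext (congrArg (fun g : GL ι F => (g : Matrix ι ι F)) h)

/-- non-law in `GL_2` with values in the commutator. -/
theorem nlc_gl2 (w : FreeGroup ℕ) (hw : w ≠ 1) (F : Type u) [Field F] [Fintype F]
    (hF : bound w < Fintype.card F) (h3 : 3 ≤ Fintype.card F) : NLC w (GL (Fin 2) F) := by
  classical
  obtain ⟨t, _, ht⟩ := exists_point w hw F Finset.univ (by rwa [Finset.card_univ])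
  have : ∃ u : Fˣ, u ≠ 1 := by
    have : 1 < Fintype.card Fˣ := by rw [Fintype.card_units]; omega
    have := Fintype.one_lt_card_iff_nontrivial.mp this
    exact exists_ne 1
  obtain ⟨u, hu⟩ := this
  refine ⟨fun k => Matrix.SpecialLinearGroup.toGL (M (t ^ (k + 1)) * M (t ^ (k + 1))), fun k => ?_, fun h => ht ?_⟩
  · beta_reduce
    rw [map_mul]
    exact mul_mem (toGL_M_mem u hu _) (toGL_M_mem u hu _)
  · rw [lift_map] at h
    exact (map_eq_one_iff _ (toGL_injective _ _)).mp h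

/-- Permutation matrices in `GL`. -/
def permGL (ι : Type*) [Fintype ι] [DecidableEq ι] (F : Type*) [CommRing F] : Equiv.Perm ι →* GL ι F where
  toFun σ := ⟨(Equiv.Perm.permMatrix F σ⁻¹ : Matrix ι ι F), Equiv.Perm.permMatrix F σ, by
      rw [← Matrix.permMatrix_mul]; simp, by
      rw [← Matrix.permMatrix_mul]; simp⟩
  map_one' := by apply Units.ext; simp
  map_mul' a b := by
    apply Units.ext
    simp only [_root_.mul_inv_rev, Units.val_mul]
    rw [← Matrix.permMatrix_mul]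

theorem coe_permGL {ι : Type*} [Fintype ι] [DecidableEq ι] {F : Type*} [CommRing F] (σ : Equiv.Perm ι) :
    ((permGL ι F σ : GL ι F) : Matrix ι ι F) = Equiv.Perm.permMatrix F σ⁻¹ := rfl

end CfsgLib.LawEmb
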