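import Cfsg.Agent.EqBase
import Cfsg.Agent.LibLawEmb
import Cfsg.Agent.LibLawAlt
import Cfsg.Prelude.Def_Classical

set_option autoImplicit false

namespace CfsgLib.LawEmb2

open Matrix CfsgLib.LawSL2 CfsgLib.LawPt CfsgLib.LawEmb
open scoped MatrixGroups Pointwise commutatorElement

universe u

theorem permGL_apply {ι : Type*} [Fintype ι] [DecidableEq ι] {F : Type*} [CommRing F] (σ : Equiv.Perm ι) (i j : ι) :
    ((permGL ι F σ : GL ι F) : Matrix ι ι F) i j = if σ j = i then 1 else 0 := by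
  rw [coe_permGL, Equiv.Perm.permMatrix, PEquiv.toMatrix_apply]
  simp only [Equiv.toPEquiv_apply, Option.mem_def, Option.some.injEq]
  by_cases h : σ⁻¹ i = j
  · rw [if_pos h, if_pos (by rw [← h]; simp)]
  · rw [if_neg h, if_neg (fun h' => h (by rw [← h']; simp))]

theorem permGL_injective (ι : Type*) [Fintype ι] [DecidableEq ι] (F : Type*) [CommRing F] [Nontrivial F] :
    Function.Injective (permGL ι F) := by
  intro σ τ h
  ext j
  have h1 := congrArg (fun g : GL ι F => (g : Matrix ι ι F) (σ j) j) h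
  simp only [permGL_apply, if_true] at h1
  by_contra hne
  rw [if_neg (fun h => hne h.symm)] at h1
  exact one_ne_zero h1

theorem nlc_perm (w : FreeGroup ℕ) (hw : w ≠ 1) :
    ∃ N : ℕ, ∀ n : ℕ, N ≤ n → NLC w (Equiv.Perm (Fin n)) := by
  obtain ⟨N, hN⟩ := CfsgLib.LawAlt.exists_bound w hw
  refine ⟨max N 5, fun n hn => ?_⟩
  obtain ⟨f, hf⟩ := hN n (le_trans (le_max_left _ _) hn)
  refine ⟨fun i => (f i : Equiv.Perm (Fin n)), fun i => ?_, fun h => hf ?_⟩
  · rw [alternatingGroup.commutator_perm_eq]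
    · exact (f i).2
    · rw [Nat.card_eq_fintype_card, Fintype.card_fin]
      exact le_trans (le_max_right _ _) hn
  · have := lift_map (alternatingGroup (Fin n)).subtype f w
    rw [Subgroup.coe_subtype] at this
    rw [this] at h
    exact Subtype.ext h

/-- The key fact: nonlaws in `GL_n`. -/
theorem nlc_gl (w : FreeGroup ℕ) (hw : w ≠ 1) :
    ∃ N : ℕ, ∀ (F : Type u) [Field F] [Fintype F] (n : ℕ), 2 ≤ n →
      (N ≤ Fintype.card F ∨ N ≤ n) → NLC w (GL (Fin n) F) := by
  obtain ⟨N, hN⟩ := nlc_perm w hw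
  refine ⟨max N (max 3 (bound w + 1)), fun F _ _ n hn h => ?_⟩
  rcases h with h | h
  · have h1 := nlc_gl2 w hw F (by
      have := le_trans (le_max_right _ _) h
      have := le_trans (le_max_right _ _) this
      omega) (le_trans (le_max_left _ _) (le_trans (le_max_right _ _) h))
    obtain ⟨k, rfl⟩ := Nat.exists_eq_add_of_le hn
    have h2 := h1.map (blkL (Fin 2) (Fin k) F) (blkL_injective _ _ _)
    exact h2.map (reidx F finSumFinEquiv).toMonoidHom (reidx F finSumFinEquiv).injective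
  · have h1 := hN n (le_trans (le_max_left _ _) h)
    exact h1.map (permGL (Fin n) F) (permGL_injective _ _)

theorem nl_sl (w : FreeGroup ℕ) (F : Type u) [Field F] (n : ℕ) (h : NLC w (GL (Fin n) F)) :
    NL w (Matrix.SpecialLinearGroup (Fin n) F) := by
  obtain ⟨f, hf, hw⟩ := h
  have hdet : ∀ i, (f i : Matrix (Fin n) (Fin n) F).det = 1 := by
    intro i
    have h1 : commutator (GL (Fin n) F) ≤ (Matrix.GeneralLinearGroup.det : GL (Fin n) F →* Fˣ).ker := by
      rw [commutator_def, Subgroup.commutator_le]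
      intro a _ b _
      rw [MonoidHom.mem_ker, map_commutatorElement]
      exact commutatorElement_eq_one_iff_mul_comm.mpr (mul_comm _ _)
    have h2 := h1 (hf i)
    rw [MonoidHom.mem_ker] at h2
    have := congrArg (fun x : Fˣ => (x : F)) h2
    simpa using this
  refine ⟨fun i => ⟨(f i : Matrix (Fin n) (Fin n) F), hdet i⟩, fun h => hw ?_⟩
  have := lift_map (Matrix.SpecialLinearGroup.toGL : Matrix.SpecialLinearGroup (Fin n) F →* GL (Fin n) F)
    (fun i => ⟨(f i : Matrix (Fin n) (Fin n) F), hdet i⟩) w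
  rw [h, map_one] at this
  rw [← this]
  congr 2
  funext i
  exact Units.ext rfl

theorem nl_sp (w : FreeGroup ℕ) (F : Type u) [Field F] (n : ℕ) (h : NLC w (GL (Fin n) F)) :
    NL w (Matrix.symplecticGroup (Fin n) F) := by
  let φ : GL (Fin n) F →* Matrix.symplecticGroup (Fin n) F :=
    MonoidHom.codRestrict ((Units.coeHom _).comp (hyp (Fin n) F)) _ (fun g => by
      change ((hyp (Fin n) F g : GL (Fin n ⊕ Fin n) F) : Matrix (Fin n ⊕ Fin n) (Fin n ⊕ Fin n) F) ∈ _
      rw [SymplecticGroup.mem_iff, coe_hyp, J, fromBlocks_multiply, fromBlocks_transpose, fromBlocks_multiply]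
      simp only [Matrix.transpose_zero, Matrix.transpose_transpose, Matrix.mul_zero, Matrix.zero_mul, add_zero,
        zero_add, Matrix.mul_neg, Matrix.mul_one, Matrix.neg_mul]
      rw [← Matrix.transpose_mul, ← Units.val_mul, mul_inv_cancel]
      simp)
  refine h.nl.map φ ?_
  intro a b hab
  apply hyp_injective (Fin n) F
  exact Units.ext (congrArg Subtype.val hab)

/-! ### orthogonal groups -/

theorem mem_isometry {ι : Type} [Fintype ι] [DecidableEq ι] {F : Type*} [Field F] {Q : (ι → F) → F}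
    {g : GL ι F} : g ∈ Cfsg.isometryGroup F Q ↔ ∀ v, Q ((g : Matrix ι ι F) *ᵥ v) = Q v := by
  constructor
  · intro h v
    exact h v v
  · intro h u v
    exact h u

theorem nl_omega (w : FreeGroup ℕ) (F : Type u) [Field F] {κ : Type*} [Fintype κ] [DecidableEq κ]
    {ι : Type} [Fintype ι] [DecidableEq ι] (Q : (ι → F) → F)
    (h : NLC w (GL κ F)) (φ : GL κ F →* GL ι F) (hφ : Function.Injective φ)
    (hQ : ∀ g v, Q ((φ g : Matrix ι ι F) *ᵥ v) = Q v) : NL w (Cfsg.Omega F Q) := by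
  let ψ : GL κ F →* Cfsg.isometryGroup F Q := φ.codRestrict _ (fun g => mem_isometry.mpr (hQ g))
  have hψ : Function.Injective ψ := by
    intro a b hab
    exact hφ (congrArg Subtype.val hab)
  exact (h.map ψ hψ).sub _ le_rfl

theorem hyp_quad {ι : Type*} [Fintype ι] [DecidableEq ι] {F : Type*} [CommRing F] (g : GL ι F)
    (v : ι ⊕ ι → F) : ∑ i, (((hyp ι F g : GL (ι ⊕ ι) F) : Matrix (ι ⊕ ι) (ι ⊕ ι) F) *ᵥ v) (Sum.inl i) *
      (((hyp ι F g : GL (ι ⊕ ι) F) : Matrix (ι ⊕ ι) (ι ⊕ ι) F) *ᵥ v) (Sum.inr i) =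
      ∑ i, v (Sum.inl i) * v (Sum.inr i) := by
  rw [hyp_mulVec]
  exact hyp_pair g (v ∘ Sum.inl) (v ∘ Sum.inr)

theorem nl_plus (w : FreeGroup ℕ) (F : Type u) [Field F] (n : ℕ) (h : NLC w (GL (Fin n) F)) :
    NL w (Cfsg.Omega F (Cfsg.quadFormPlus n F)) := by
  refine nl_omega w F _ h (hyp (Fin n) F) (hyp_injective _ _) (fun g v => ?_)
  exact hyp_quad g v

theorem nl_odd (w : FreeGroup ℕ) (F : Type u) [Field F] (n : ℕ) (h : NLC w (GL (Fin n) F)) :
    NL w (Cfsg.Omega F (Cfsg.quadFormOdd n F)) := by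
  refine nl_omega w F _ h (((blk Unit (Fin n ⊕ Fin n) F).comp (MonoidHom.inr _ _)).comp (hyp (Fin n) F)) ?_
    (fun g v => ?_)
  · intro a b hab
    apply hyp_injective (Fin n) F
    have h1 := congrArg (fun g : GL (Unit ⊕ (Fin n ⊕ Fin n)) F =>
      (g : Matrix (Unit ⊕ (Fin n ⊕ Fin n)) (Unit ⊕ (Fin n ⊕ Fin n)) F)) hab
    simp only [MonoidHom.comp_apply, coe_blk, MonoidHom.inr_apply] at h1
    exact Units.ext (fromBlocks_inj.mp h1).2.2.2
  · simp only [MonoidHom.comp_apply, coe_blk, MonoidHom.inr_apply, Cfsg.quadFormOdd]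
    rw [fromBlocks_mulVec]
    simp only [Sum.elim_inl, Sum.elim_inr]
    have := hyp_quad g (v ∘ Sum.inr)
    simp only [Function.comp_def] at this
    simp [Function.comp_def]
    exact this

theorem nl_minus (w : FreeGroup ℕ) (F : Type u) [Field F] (n : ℕ) (a b : F) (h : NLC w (GL (Fin n) F)) :
    NL w (Cfsg.Omega F (Cfsg.quadFormMinus n F a b)) := by
  refine nl_omega w F _ h ((blkL (Fin n ⊕ Fin n) (Fin 2) F).comp (hyp (Fin n) F)) ?_
    (fun g v => ?_)
  · intro a b hab
    apply hyp_injective (Fin n) F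
    exact blkL_injective _ _ _ hab
  · simp only [blkL, MonoidHom.comp_apply, coe_blk, MonoidHom.inl_apply, Cfsg.quadFormMinus]
    rw [fromBlocks_mulVec]
    simp only [Sum.elim_inl, Sum.elim_inr]
    have := hyp_quad g (v ∘ Sum.inl)
    simp only [Function.comp_def] at this
    simp [Function.comp_def]
    exact this

end CfsgLib.LawEmb2
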