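import Cfsg.Agent.EqBase
import Cfsg.Agent.LibLawEmb2

set_option autoImplicit false

namespace CfsgLib.LawSU

open Matrix CfsgLib.LawSL2 CfsgLib.LawPt CfsgLib.LawEmb CfsgLib.LawEmb2
open scoped MatrixGroups Pointwise commutatorElement

universe u

/-- The conjugation of a field of order `q^2`. -/
theorem exists_conj (F : Type u) [Field F] [Fintype F] (q : ℕ) (h : Fintype.card F = q ^ 2) :
    ∃ σ : F →+* F, (∀ x, σ x = x ^ q) ∧ (∀ x, σ (σ x) = x) ∧ 2 ≤ q := by
  obtain ⟨p, hchar⟩ := CharP.exists F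
  have : Fact p.Prime := ⟨CharP.char_is_prime F p⟩
  have hp : p.Prime := Fact.out
  obtain ⟨n, _, hcard⟩ := FiniteField.card F p
  obtain ⟨k, _, hk⟩ := (Nat.dvd_prime_pow hp).mp
    (show q ∣ p ^ (n : ℕ) from by rw [← hcard, h, sq]; exact Dvd.intro _ rfl)
  refine ⟨iterateFrobenius F p k, fun x => ?_, fun x => ?_, ?_⟩
  · rw [iterateFrobenius_def, hk]
  · rw [iterateFrobenius_def, iterateFrobenius_def, ← hk, ← pow_mul]
    have := FiniteField.pow_card x
    rwa [h, sq] at this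
  · by_contra hlt
    have h1 : 1 < Fintype.card F := Fintype.one_lt_card
    rw [h] at h1
    interval_cases q <;> omega

/-- The data for the embedding of `SL_2(q)` in `SU_2(q)`. -/
theorem exists_data (F : Type u) [Field F] [Fintype F] [DecidableEq F] (q : ℕ) (h : Fintype.card F = q ^ 2)
    (σ : F →+* F) (hσ : ∀ x, σ x = x ^ q) (hq : 2 ≤ q) :
    (∃ α : F, σ α ≠ α) ∧ (∃ β : F, β * σ β = -1) ∧
      q - 1 ≤ (Finset.univ.filter (fun t : F => σ t = t)).card := by
  classical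
  obtain ⟨g, hg⟩ := IsCyclic.exists_generator (α := Fˣ)
  have hord : orderOf g = (q - 1) * (q + 1) := by
    rw [orderOf_eq_card_of_forall_mem_zpowers hg, Nat.card_eq_fintype_card, Fintype.card_units, h]
    have : q ^ 2 - 1 = (q + 1) * (q - 1) := by
      have := Nat.sq_sub_sq q 1
      simpa using this
    rw [this, mul_comm]
  have hpos : 0 < orderOf g := orderOf_pos g
  refine ⟨⟨(g : F), fun hh => ?_⟩, ?_, ?_⟩
  · rw [hσ] at hh
    have h1 : g ^ q = g := Units.ext (by rw [Units.val_pow_eq_pow_val]; exact hh)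
    have h2 : g ^ (q - 1) = 1 := by
      have : g ^ (q - 1 + 1) = g := by rw [Nat.sub_add_cancel (by omega)]; exact h1
      rw [pow_succ] at this
      exact mul_eq_right.mp this
    have h3 := orderOf_dvd_of_pow_eq_one h2
    rw [hord] at h3
    have h4 := Nat.le_of_dvd (by omega) h3
    nlinarith [Nat.sub_pos_of_lt (show 1 < q by omega)]
  · have hm1 : σ (-1) = -1 := by rw [map_neg, map_one]
    have hm2 : ((-1 : Fˣ)) ^ (q - 1) = 1 := by
      have h1 : (-1 : Fˣ) ^ q = -1 := Units.ext (by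
        rw [Units.val_pow_eq_pow_val, Units.val_neg, Units.val_one, ← hσ, hm1])
      have : (-1 : Fˣ) ^ (q - 1 + 1) = -1 := by rw [Nat.sub_add_cancel (by omega)]; exact h1
      rw [pow_succ] at this
      exact mul_eq_right.mp this
    obtain ⟨j, hj⟩ := (Submonoid.mem_powers_iff _ _).mp (mem_powers_iff_mem_zpowers.mpr (hg (-1)))
    rw [← hj, ← pow_mul] at hm2
    have h3 := orderOf_dvd_of_pow_eq_one hm2
    rw [hord] at h3
    rw [mul_comm j, Nat.mul_dvd_mul_iff_left (by omega)] at h3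
    obtain ⟨i, rfl⟩ := h3
    refine ⟨((g ^ i : Fˣ) : F), ?_⟩
    rw [hσ, ← pow_succ']
    have : (g ^ i) ^ (q + 1) = -1 := by rw [← pow_mul, mul_comm, hj]
    have h5 := congrArg (fun x : Fˣ => (x : F)) this
    simpa using h5
  · have hinj : Set.InjOn (fun j : ℕ => ((g ^ ((q + 1) * j) : Fˣ) : F)) (Finset.range (q - 1) : Set ℕ) := by
      intro a ha b hb hab
      simp only [Finset.coe_range, Set.mem_Iio] at ha hb
      have h1 : g ^ ((q + 1) * a) = g ^ ((q + 1) * b) := Units.ext hab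
      have h2 := pow_injOn_Iio_orderOf (x := g) (x₁ := (q + 1) * a) (x₂ := (q + 1) * b)
        (by rw [Set.mem_Iio, hord, mul_comm]; exact Nat.mul_lt_mul_of_pos_right ha (by omega))
        (by rw [Set.mem_Iio, hord, mul_comm]; exact Nat.mul_lt_mul_of_pos_right hb (by omega)) h1
      exact Nat.eq_of_mul_eq_mul_left (by omega) h2
    have hsub : (Finset.range (q - 1)).image (fun j : ℕ => ((g ^ ((q + 1) * j) : Fˣ) : F)) ⊆
        (Finset.univ.filter (fun t : F => σ t = t)) := by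
      intro t ht
      obtain ⟨j, _, rfl⟩ := Finset.mem_image.mp ht
      rw [Finset.mem_filter]
      refine ⟨Finset.mem_univ _, ?_⟩
      rw [hσ, ← Units.val_pow_eq_pow_val]
      congr 1
      have h1 : (g ^ ((q + 1) * j)) ^ (q - 1) = 1 := by
        rw [← pow_mul, show (q + 1) * j * (q - 1) = orderOf g * j by rw [hord]; ring, pow_mul, pow_orderOf_eq_one,
          one_pow]
      calc (g ^ ((q + 1) * j)) ^ q = (g ^ ((q + 1) * j)) ^ (q - 1 + 1) := by rw [Nat.sub_add_cancel (by omega)]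
        _ = _ := by rw [pow_succ, h1, one_mul]
    have := Finset.card_le_card hsub
    rw [Finset.card_image_of_injOn hinj, Finset.card_range] at this
    exact this

/-- conjugation by `T` -/
def conjSL {F : Type*} [Field F] (T : GL (Fin 2) F) :
    Matrix.SpecialLinearGroup (Fin 2) F →* Matrix.SpecialLinearGroup (Fin 2) F where
  toFun g := ⟨(T : Matrix (Fin 2) (Fin 2) F) * g * ((T⁻¹ : GL (Fin 2) F) : Matrix (Fin 2) (Fin 2) F), by
    rw [det_units_conj]; exact g.2⟩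
  map_one' := by
    apply Subtype.ext
    simp
  map_mul' a b := by
    apply Subtype.ext
    have hT : ((T⁻¹ : GL (Fin 2) F) : Matrix (Fin 2) (Fin 2) F) * (T : Matrix (Fin 2) (Fin 2) F) = 1 := by
      rw [← Units.val_mul]; simp
    change (T : Matrix (Fin 2) (Fin 2) F) * ((a : Matrix (Fin 2) (Fin 2) F) * (b : Matrix (Fin 2) (Fin 2) F)) *
      ((T⁻¹ : GL (Fin 2) F) : Matrix (Fin 2) (Fin 2) F) =
      ((T : Matrix (Fin 2) (Fin 2) F) * a * ((T⁻¹ : GL (Fin 2) F) : Matrix (Fin 2) (Fin 2) F)) *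
      ((T : Matrix (Fin 2) (Fin 2) F) * b * ((T⁻¹ : GL (Fin 2) F) : Matrix (Fin 2) (Fin 2) F))
    simp only [Matrix.mul_assoc]
    rw [← Matrix.mul_assoc _ (T : Matrix (Fin 2) (Fin 2) F), hT, Matrix.one_mul]

theorem coe_conjSL {F : Type*} [Field F] (T : GL (Fin 2) F) (g : Matrix.SpecialLinearGroup (Fin 2) F) :
    ((conjSL T g : Matrix.SpecialLinearGroup (Fin 2) F) : Matrix (Fin 2) (Fin 2) F) =
      (T : Matrix (Fin 2) (Fin 2) F) * g * ((T⁻¹ : GL (Fin 2) F) : Matrix (Fin 2) (Fin 2) F) := rfl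

theorem conjSL_injective {F : Type*} [Field F] (T : GL (Fin 2) F) : Function.Injective (conjSL T) := by
  rw [injective_iff_map_eq_one]
  intro g hg
  have h1 := congrArg (fun g : Matrix.SpecialLinearGroup (Fin 2) F => (g : Matrix (Fin 2) (Fin 2) F)) hg
  simp only [coe_conjSL, Matrix.SpecialLinearGroup.coe_one] at h1
  have hTi : ((T⁻¹ : GL (Fin 2) F) : Matrix (Fin 2) (Fin 2) F) * (T : Matrix (Fin 2) (Fin 2) F) = 1 := by
    rw [← Units.val_mul]; simp
  apply Subtype.ext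
  rw [Matrix.SpecialLinearGroup.coe_one]
  calc (g : Matrix (Fin 2) (Fin 2) F) = ((T⁻¹ : GL (Fin 2) F) : Matrix (Fin 2) (Fin 2) F) *
      ((T : Matrix (Fin 2) (Fin 2) F) * g * ((T⁻¹ : GL (Fin 2) F) : Matrix (Fin 2) (Fin 2) F)) *
        (T : Matrix (Fin 2) (Fin 2) F) := by
        simp only [Matrix.mul_assoc]
        rw [hTi, Matrix.mul_one, ← Matrix.mul_assoc, hTi, Matrix.one_mul]
    _ = 1 := by rw [h1, Matrix.mul_one, hTi]

/-- block embedding `SL_2 → SL_{2+k}`. -/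
def blkSL (F : Type*) [Field F] (k : ℕ) :
    Matrix.SpecialLinearGroup (Fin 2) F →* Matrix.SpecialLinearGroup (Fin (2 + k)) F where
  toFun g := ⟨reindex finSumFinEquiv finSumFinEquiv (fromBlocks (g : Matrix (Fin 2) (Fin 2) F) 0 0
    (1 : Matrix (Fin k) (Fin k) F)), by
      rw [det_reindex_self, det_fromBlocks_zero₂₁, det_one, mul_one]; exact g.2⟩
  map_one' := by
    apply Subtype.ext
    simp
  map_mul' a b := by
    apply Subtype.ext
    change reindex finSumFinEquiv finSumFinEquiv (fromBlocks ((a : Matrix (Fin 2) (Fin 2) F) *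
      (b : Matrix (Fin 2) (Fin 2) F)) 0 0 (1 : Matrix (Fin k) (Fin k) F)) =
      reindex finSumFinEquiv finSumFinEquiv (fromBlocks (a : Matrix (Fin 2) (Fin 2) F) 0 0
        (1 : Matrix (Fin k) (Fin k) F)) *
      reindex finSumFinEquiv finSumFinEquiv (fromBlocks (b : Matrix (Fin 2) (Fin 2) F) 0 0
        (1 : Matrix (Fin k) (Fin k) F))
    simp only [reindex_apply]
    rw [submatrix_mul_equiv, fromBlocks_multiply]
    simp

theorem coe_blkSL {F : Type*} [Field F] {k : ℕ} (g : Matrix.SpecialLinearGroup (Fin 2) F) :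
    ((blkSL F k g : Matrix.SpecialLinearGroup (Fin (2 + k)) F) : Matrix (Fin (2 + k)) (Fin (2 + k)) F) =
      reindex finSumFinEquiv finSumFinEquiv (fromBlocks (g : Matrix (Fin 2) (Fin 2) F) 0 0
    (1 : Matrix (Fin k) (Fin k) F)) := rfl

theorem blkSL_injective (F : Type*) [Field F] (k : ℕ) : Function.Injective (blkSL F k) := by
  intro a b h
  have h1 := congrArg (fun g : Matrix.SpecialLinearGroup (Fin (2 + k)) F =>
    (g : Matrix (Fin (2 + k)) (Fin (2 + k)) F)) h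
  simp only [coe_blkSL] at h1
  exact Subtype.ext (fromBlocks_inj.mp ((reindex finSumFinEquiv finSumFinEquiv).injective h1)).1

theorem blkSL_mem {F : Type*} [Field F] {k : ℕ} (q : ℕ) (g : Matrix.SpecialLinearGroup (Fin 2) F)
    (hg : ∀ u v : Fin 2 → F, ∑ i, ((g : Matrix (Fin 2) (Fin 2) F) *ᵥ u) i * (((g : Matrix (Fin 2) (Fin 2) F) *ᵥ v) i) ^ q =
      ∑ i, u i * (v i) ^ q) : blkSL F k g ∈ Cfsg.SU (2 + k) F q := by
  intro u v
  have key : ∀ (x : Fin (2 + k) → F) (s : Fin 2 ⊕ Fin k),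
      ((blkSL F k g : Matrix (Fin (2 + k)) (Fin (2 + k)) F) *ᵥ x) (finSumFinEquiv s) =
        Sum.elim ((g : Matrix (Fin 2) (Fin 2) F) *ᵥ (fun i => x (finSumFinEquiv (Sum.inl i))))
          (fun i => x (finSumFinEquiv (Sum.inr i))) s := by
    intro x s
    rw [coe_blkSL, reindex_apply, submatrix_mulVec_equiv]
    simp only [Function.comp_apply, Equiv.symm_apply_apply, Equiv.symm_symm]
    rw [fromBlocks_mulVec]
    cases s <;> simp [Function.comp_def]
  change Cfsg.hermForm (2 + k) F q ((blkSL F k g : Matrix (Fin (2 + k)) (Fin (2 + k)) F) *ᵥ u)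
    ((blkSL F k g : Matrix (Fin (2 + k)) (Fin (2 + k)) F) *ᵥ v) = Cfsg.hermForm (2 + k) F q u v
  unfold Cfsg.hermForm
  rw [← Equiv.sum_comp finSumFinEquiv, ← Equiv.sum_comp finSumFinEquiv, Fintype.sum_sum_type, Fintype.sum_sum_type]
  congr 1
  · simp only [key, Sum.elim_inl]
    exact hg _ _
  · simp only [key, Sum.elim_inr]


/-- the special matrix `T`. -/
noncomputable def Tm {F : Type*} [Field F] (α α' β : F) (h : β * (α' - α) ≠ 0) : GL (Fin 2) F :=
  Matrix.GeneralLinearGroup.mkOfDetNeZero !![1, α; β, β * α'] (by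
    rw [det_fin_two_of]; intro h'; apply h; rw [← h']; ring)

theorem coe_Tm {F : Type*} [Field F] (α α' β : F) (h : β * (α' - α) ≠ 0) :
    ((Tm α α' β h : GL (Fin 2) F) : Matrix (Fin 2) (Fin 2) F) = !![1, α; β, β * α'] := rfl

theorem Tm_form {F : Type*} [Field F] (σ : F →+* F) (hσ2 : ∀ x, σ (σ x) = x) (α β : F)
    (hβ : β * σ β = -1) (h : β * (σ α - α) ≠ 0) (x y : Fin 2 → F) :
    ∑ i, ((Tm α (σ α) β h : Matrix (Fin 2) (Fin 2) F) *ᵥ x) i *
      σ (((Tm α (σ α) β h : Matrix (Fin 2) (Fin 2) F) *ᵥ y) i) =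
      (σ α - α) * (x 0 * σ (y 1) - x 1 * σ (y 0)) := by
  rw [coe_Tm]
  simp only [Matrix.mulVec, dotProduct, Fin.sum_univ_two, Matrix.of_apply, Matrix.cons_val_zero,
    Matrix.cons_val_one, map_add, map_mul, map_one, one_mul, hσ2]
  linear_combination ((x 0) * (σ (y 0)) + (x 0) * (α) * (σ (y 1)) + (σ α) * (x 1) * (σ (y 0)) +
    (σ α) * (x 1) * α * (σ (y 1))) * hβ

theorem conj_form {F : Type*} [Field F] (σ : F →+* F) (hσ2 : ∀ x, σ (σ x) = x) (α β : F)
    (hβ : β * σ β = -1) (h : β * (σ α - α) ≠ 0) (g : Matrix.SpecialLinearGroup (Fin 2) F)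
    (hg : ∀ i j, σ (g i j) = g i j) (u v : Fin 2 → F) :
    ∑ i, ((conjSL (Tm α (σ α) β h) g : Matrix (Fin 2) (Fin 2) F) *ᵥ u) i *
      σ (((conjSL (Tm α (σ α) β h) g : Matrix (Fin 2) (Fin 2) F) *ᵥ v) i) =
      ∑ i, u i * σ (v i) := by
  set T := Tm α (σ α) β h with hT
  have hTi : (T : Matrix (Fin 2) (Fin 2) F) * ((T⁻¹ : GL (Fin 2) F) : Matrix (Fin 2) (Fin 2) F) = 1 := by
    rw [← Units.val_mul]; simp
  have e1 : ∀ u : Fin 2 → F, (conjSL T g : Matrix (Fin 2) (Fin 2) F) *ᵥ u =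
      (T : Matrix (Fin 2) (Fin 2) F) *ᵥ ((g : Matrix (Fin 2) (Fin 2) F) *ᵥ
        (((T⁻¹ : GL (Fin 2) F) : Matrix (Fin 2) (Fin 2) F) *ᵥ u)) := by
    intro u
    rw [coe_conjSL, mulVec_mulVec, mulVec_mulVec]
  have e2 : ∀ u : Fin 2 → F, u =
      (T : Matrix (Fin 2) (Fin 2) F) *ᵥ (((T⁻¹ : GL (Fin 2) F) : Matrix (Fin 2) (Fin 2) F) *ᵥ u) := by
    intro u
    rw [mulVec_mulVec, hTi, one_mulVec]
  rw [e1 u, e1 v]
  conv_rhs => rw [e2 u, e2 v]
  generalize (((T⁻¹ : GL (Fin 2) F) : Matrix (Fin 2) (Fin 2) F) *ᵥ u) = x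
  generalize (((T⁻¹ : GL (Fin 2) F) : Matrix (Fin 2) (Fin 2) F) *ᵥ v) = y
  rw [hT, Tm_form σ hσ2 α β hβ h, Tm_form σ hσ2 α β hβ h]
  congr 1
  have hdet : g 0 0 * g 1 1 - g 0 1 * g 1 0 = 1 := by
    have := g.2
    rwa [det_fin_two] at this
  simp only [Matrix.mulVec, dotProduct, Fin.sum_univ_two, map_add, map_mul, hg]
  linear_combination (x 0 * σ (y 1) - x 1 * σ (y 0)) * hdet

theorem sigma_M {F : Type*} [Field F] (σ : F →+* F) (t : F) (ht : σ t = t) (k : ℕ) (i j : Fin 2) :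
    σ ((M (t ^ (k + 1)) * M (t ^ (k + 1)) : Matrix.SpecialLinearGroup (Fin 2) F) i j) =
      (M (t ^ (k + 1)) * M (t ^ (k + 1)) : Matrix.SpecialLinearGroup (Fin 2) F) i j := by
  have h : Matrix.SpecialLinearGroup.map σ (M (t ^ (k + 1)) * M (t ^ (k + 1))) =
      M (t ^ (k + 1)) * M (t ^ (k + 1)) := by
    rw [map_mul, map_M, map_pow, ht]
  exact congrArg (fun g : Matrix.SpecialLinearGroup (Fin 2) F => g i j) h

theorem nl_su_q (w : FreeGroup ℕ) (hw : w ≠ 1) (F : Type u) [Field F] [Fintype F] (q n : ℕ)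
    (h : Fintype.card F = q ^ 2) (hn : 2 ≤ n) (hq : bound w + 1 < q) : NL w (Cfsg.SU n F q) := by
  classical
  obtain ⟨σ, hσ, hσ2, hq2⟩ := exists_conj F q h
  obtain ⟨⟨α, hα⟩, ⟨β, hβ⟩, hcard⟩ := exists_data F q h σ hσ hq2
  obtain ⟨t, htS, ht⟩ := exists_point w hw F _ (lt_of_lt_of_le (by omega) hcard)
  rw [Finset.mem_filter] at htS
  have hne : β * (σ α - α) ≠ 0 := by
    apply mul_ne_zero
    · rintro rfl
      rw [zero_mul] at hβ
      have : (1 : F) = 0 := by linear_combination hβ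
      exact one_ne_zero this
    · exact sub_ne_zero.mpr hα
  obtain ⟨k, rfl⟩ := Nat.exists_eq_add_of_le hn
  let ψ : Matrix.SpecialLinearGroup (Fin 2) F →* Matrix.SpecialLinearGroup (Fin (2 + k)) F :=
    (blkSL F k).comp (conjSL (Tm α (σ α) β hne))
  have hψ : Function.Injective ψ := (blkSL_injective F k).comp (conjSL_injective _)
  have hmem : ∀ i : ℕ, ψ (M (t ^ (i + 1)) * M (t ^ (i + 1))) ∈ Cfsg.SU (2 + k) F q := by
    intro i
    apply blkSL_mem
    intro u v
    have := conj_form σ hσ2 α β hβ hne (M (t ^ (i + 1)) * M (t ^ (i + 1)))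
      (sigma_M σ t htS.2 i) u v
    simp only [hσ] at this
    simp only [hσ]
    exact this
  refine ⟨fun i => ⟨_, hmem i⟩, fun hh => ht ?_⟩
  have h1 := lift_map (Cfsg.SU (2 + k) F q).subtype (fun i => ⟨_, hmem i⟩) w
  rw [hh, map_one] at h1
  have h2 := lift_map ψ (fun i : ℕ => M (t ^ (i + 1)) * M (t ^ (i + 1))) w
  exact (map_eq_one_iff ψ hψ).mp (by rw [← h2]; exact h1)

theorem nl_su_n (w : FreeGroup ℕ) (F : Type u) [Field F] (q n : ℕ)
    (h : NL w (alternatingGroup (Fin n))) : NL w (Cfsg.SU n F q) := by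
  let φ : alternatingGroup (Fin n) →* Cfsg.SU n F q :=
    { toFun := fun s => ⟨⟨Equiv.Perm.permMatrix F (s : Equiv.Perm (Fin n))⁻¹, by
          rw [det_permutation, Equiv.Perm.sign_inv, s.2]; simp⟩, by
          intro u v
          change Cfsg.hermForm n F q (Equiv.Perm.permMatrix F (s : Equiv.Perm (Fin n))⁻¹ *ᵥ u)
            (Equiv.Perm.permMatrix F (s : Equiv.Perm (Fin n))⁻¹ *ᵥ v) = _
          rw [permMatrix_mulVec, permMatrix_mulVec]
          exact Equiv.sum_comp (s : Equiv.Perm (Fin n))⁻¹ (fun i => u i * (v i) ^ q)⟩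
      map_one' := by
        apply Subtype.ext
        apply Subtype.ext
        simp
      map_mul' := fun a b => by
        apply Subtype.ext
        apply Subtype.ext
        change Equiv.Perm.permMatrix F ((a * b : alternatingGroup (Fin n)) : Equiv.Perm (Fin n))⁻¹ =
          Equiv.Perm.permMatrix F (a : Equiv.Perm (Fin n))⁻¹ * Equiv.Perm.permMatrix F (b : Equiv.Perm (Fin n))⁻¹
        rw [← Matrix.permMatrix_mul]
        simp }
  refine h.map φ ?_
  intro a b hab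
  have h1 : Equiv.Perm.permMatrix F (a : Equiv.Perm (Fin n))⁻¹ = Equiv.Perm.permMatrix F (b : Equiv.Perm (Fin n))⁻¹ :=
    congrArg (fun g : Cfsg.SU n F q => ((g : Matrix.SpecialLinearGroup (Fin n) F) : Matrix (Fin n) (Fin n) F)) hab
  apply Subtype.ext
  exact permGL_injective (Fin n) F (Units.ext h1)

end CfsgLib.LawSU
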