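import Cfsg.Agent.LibH22OOrd
import Cfsg.Agent.LibH22OForms
import Cfsg.Agent.LibH22Exist

set_option autoImplicit false

/-! Classification of quadratic forms over finite fields: tools. -/

namespace CfsgLib.QForm27

open Cfsg.Agent.H22 Module

universe w

section ext
variable {F V : Type*} [Field F] [AddCommGroup V] [Module F V]

theorem qf_zero {ι : Type*} [Finite ι] (b : Basis ι F V) (D : QuadraticForm F V) (h1 : ∀ i, D (b i) = 0)
    (h2 : ∀ i j, QuadraticMap.polar D (b i) (b j) = 0) : D = 0 := by
  classical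
  haveI := Fintype.ofFinite ι
  have hp : QuadraticMap.polarBilin D = 0 := by
    apply LinearMap.BilinForm.ext_basis b
    intro i j
    exact h2 i j
  have hadd : ∀ x y, D (x + y) = D x + D y := by
    intro x y
    rw [qadd]
    have : QuadraticMap.polar D x y = QuadraticMap.polarBilin D x y := rfl
    rw [this, hp]; simp
  ext v
  rw [← b.sum_repr v]
  have h3 : ∀ s : Finset ι, D (∑ i ∈ s, b.repr v i • b i) = 0 := by
    intro s
    induction s using Finset.induction_on with
    | empty => simp
    | insert a s ha ih => rw [Finset.sum_insert ha, hadd, ih, qsmul, h1, mul_zero, add_zero]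
  rw [h3]; rfl

theorem qf_ext {ι : Type*} [Finite ι] (b : Basis ι F V) {D D' : QuadraticForm F V} (h1 : ∀ i, D (b i) = D' (b i))
    (h2 : ∀ i j, QuadraticMap.polar D (b i) (b j) = QuadraticMap.polar D' (b i) (b j)) : D = D' := by
  rw [← sub_eq_zero]
  apply qf_zero b
  · intro i
    rw [QuadraticMap.sub_apply, h1, sub_self]
  · intro i j
    have : QuadraticMap.polar (⇑(D - D')) (b i) (b j) = QuadraticMap.polar D (b i) (b j) - QuadraticMap.polar D' (b i) (b j) := by
      unfold QuadraticMap.polar
      simp only [QuadraticMap.sub_apply]; ring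
    rw [this, h2, sub_self]

theorem inj_of_nondeg {W : Type*} [AddCommGroup W] [Module F W] (φ : W →ₗ[F] V) {Q : QuadraticForm F V} {Q' : QuadraticForm F W}
    (hQ' : (QuadraticMap.polarBilin Q').Nondegenerate) {d : F} (hd : d ≠ 0) (h : ∀ x, Q (φ x) = d * Q' x) : Function.Injective φ := by
  rw [← LinearMap.ker_eq_bot, LinearMap.ker_eq_bot']
  intro x hx
  apply hQ'.1
  intro y
  show QuadraticMap.polar Q' x y = 0
  have h1 : d * QuadraticMap.polar Q' x y = QuadraticMap.polar Q (φ x) (φ y) := by
    unfold QuadraticMap.polar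
    rw [← map_add, h, h, h]; ring
  rw [hx, QuadraticMap.polar_zero_left] at h1
  exact (mul_eq_zero.1 h1).resolve_left hd

end ext

section fam
variable {F : Type*} [Field F] [Fintype F]

/-- hyperbolic families exist -/
theorem exists_fam (k : ℕ) : ∀ {V : Type w} [AddCommGroup V] [Module F V] [FiniteDimensional F V] (Q : QuadraticForm F V)
    (_ : (QuadraticMap.polarBilin Q).Nondegenerate) (_ : 2 * k + 1 ≤ finrank F V), ∃ s : Fin k → V × V, QFam Q k s := by
  induction k with
  | zero =>
    intro V _ _ _ Q _ _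
    exact ⟨fun i => i.elim0, fun i => i.elim0, fun i => i.elim0⟩
  | succ k ih =>
    intro V _ _ _ Q hQ hfr
    obtain ⟨v, hv0, hv⟩ := exists_singular hQ (by omega)
    obtain ⟨f, hf⟩ := exists_HP_of_singular hQ v hv0 hv
    obtain ⟨s, hs⟩ := ih (qres Q (perp2 Q v f)) (hf.nondeg hQ) (by have := hf.finrank_eq; omega)
    exact ⟨_, ((qfamEquiv Q k).symm ⟨⟨(v, f), hf⟩, ⟨s, hs⟩⟩).2⟩

variable {V : Type*} [AddCommGroup V] [Module F V] {Q : QuadraticForm F V} {k : ℕ} {s : Fin k → V × V}

/-- the complement -/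
def cp (Q : QuadraticForm F V) (s : Fin k → V × V) : Submodule F V where
  carrier := {x | cperp Q s x}
  add_mem' := fun {a b} ha hb i => ⟨by rw [QuadraticMap.polar_add_right, (ha i).1, (hb i).1, add_zero],
    by rw [QuadraticMap.polar_add_right, (ha i).2, (hb i).2, add_zero]⟩
  zero_mem' := fun i => ⟨by simp, by simp⟩
  smul_mem' := fun c a ha i => ⟨by rw [QuadraticMap.polar_smul_right, (ha i).1, smul_zero],
    by rw [QuadraticMap.polar_smul_right, (ha i).2, smul_zero]⟩

theorem cp_vec {x : V} (hx : x ∈ cp Q s) (j : Fin k ⊕ Fin k) : QuadraticMap.polar Q (QFam.vec s j) x = 0 := by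
  rcases j with j | j
  · exact (hx j).1
  · exact (hx j).2

theorem cp_dual {x : V} (hx : x ∈ cp Q s) (j : Fin k ⊕ Fin k) : QuadraticMap.polar Q (QFam.dual s j) x = 0 := by
  rcases j with j | j
  · exact (hx j).2
  · exact (hx j).1

theorem polar_sum {κ : Type*} (t : Finset κ) (v : V) (g : κ → V) :
    QuadraticMap.polar Q v (∑ i ∈ t, g i) = ∑ i ∈ t, QuadraticMap.polar Q v (g i) :=
  map_sum (QuadraticMap.polarBilin Q v) g t

theorem biorth (hs : QFam Q k s) (a b : Fin k ⊕ Fin k) :
    QuadraticMap.polar Q (QFam.vec s a) (QFam.dual s b) = if a = b then 1 else 0 := by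
  rcases a with a | a <;> rcases b with b | b
  · show QuadraticMap.polar Q (s a).1 (s b).2 = _
    rw [(hs.2 a b).2.2]; simp
  · show QuadraticMap.polar Q (s a).1 (s b).1 = _
    rw [(hs.2 a b).1]; simp
  · show QuadraticMap.polar Q (s a).2 (s b).2 = _
    rw [(hs.2 a b).2.1]; simp
  · show QuadraticMap.polar Q (s a).2 (s b).1 = _
    rw [QuadraticMap.polar_comm, (hs.2 b a).2.2]
    simp [eq_comm]

theorem dual_sum (hs : QFam Q k s) (c : Fin k ⊕ Fin k → F) (j : Fin k ⊕ Fin k) :
    QuadraticMap.polar Q (QFam.dual s j) (∑ l, c l • QFam.vec s l) = c j := by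
  rw [polar_sum, Finset.sum_eq_single j]
  · rw [QuadraticMap.polar_smul_right, QuadraticMap.polar_comm, biorth hs, if_pos rfl, smul_eq_mul, mul_one]
  · intro l _ hl
    rw [QuadraticMap.polar_smul_right, QuadraticMap.polar_comm, biorth hs, if_neg hl, smul_zero]
  · intro h; exact absurd (Finset.mem_univ j) h

theorem proj_mem (hs : QFam Q k s) (v : V) : v - ∑ j, QuadraticMap.polar Q (QFam.dual s j) v • QFam.vec s j ∈ cp Q s := by
  have h1 : ∀ j, QuadraticMap.polar Q (QFam.dual s j) (v - ∑ j, QuadraticMap.polar Q (QFam.dual s j) v • QFam.vec s j) = 0 := by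
    intro j
    rw [QuadraticMap.polar_sub_right, dual_sum hs, sub_self]
  exact fun i => ⟨h1 (.inr i), h1 (.inl i)⟩

/-- decomposition along a family -/
noncomputable def famE (hs : QFam Q k s) : V ≃ₗ[F] (Fin k ⊕ Fin k → F) × cp Q s where
  toFun v := (fun j => QuadraticMap.polar Q (QFam.dual s j) v, ⟨_, proj_mem hs v⟩)
  map_add' x y := by
    refine Prod.ext ?_ (Subtype.ext ?_)
    · funext j
      show QuadraticMap.polar Q (QFam.dual s j) (x + y) = _
      rw [QuadraticMap.polar_add_right]; rfl
    · show x + y - ∑ j, QuadraticMap.polar Q (QFam.dual s j) (x + y) • QFam.vec s j =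
        (x - ∑ j, QuadraticMap.polar Q (QFam.dual s j) x • QFam.vec s j) + (y - ∑ j, QuadraticMap.polar Q (QFam.dual s j) y • QFam.vec s j)
      simp only [QuadraticMap.polar_add_right, add_smul, Finset.sum_add_distrib]
      abel
  map_smul' c x := by
    refine Prod.ext ?_ (Subtype.ext ?_)
    · funext j
      show QuadraticMap.polar Q (QFam.dual s j) (c • x) = _
      rw [QuadraticMap.polar_smul_right]; rfl
    · show c • x - ∑ j, QuadraticMap.polar Q (QFam.dual s j) (c • x) • QFam.vec s j =
        c • (x - ∑ j, QuadraticMap.polar Q (QFam.dual s j) x • QFam.vec s j)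
      simp only [QuadraticMap.polar_smul_right, smul_sub, Finset.smul_sum, smul_assoc]
  invFun p := ∑ j, p.1 j • QFam.vec s j + p.2
  left_inv v := by
    show ∑ j, QuadraticMap.polar Q (QFam.dual s j) v • QFam.vec s j + (v - ∑ j, QuadraticMap.polar Q (QFam.dual s j) v • QFam.vec s j) = v
    abel
  right_inv := by
    rintro ⟨c, w⟩
    have h1 : ∀ j, QuadraticMap.polar Q (QFam.dual s j) (∑ l, c l • QFam.vec s l + w) = c j := by
      intro j
      rw [QuadraticMap.polar_add_right, dual_sum hs, cp_dual w.2, add_zero]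
    refine Prod.ext ?_ (Subtype.ext ?_)
    · funext j; exact h1 j
    · show (∑ j, c j • QFam.vec s j + (w : V)) - ∑ j, QuadraticMap.polar Q (QFam.dual s j) (∑ j, c j • QFam.vec s j + w) • QFam.vec s j = w
      simp only [h1]
      abel

theorem finrank_cp (hs : QFam Q k s) [FiniteDimensional F V] : finrank F V = 2 * k + finrank F (cp Q s) := by
  rw [(famE hs).finrank_eq, Module.finrank_prod, Module.finrank_pi, Fintype.card_sum, Fintype.card_fin, two_mul]

theorem nondeg_cp (hs : QFam Q k s) (hQ : (QuadraticMap.polarBilin Q).Nondegenerate) :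
    (QuadraticMap.polarBilin (qres Q (cp Q s))).Nondegenerate := by
  have key : ∀ x : cp Q s, (∀ y : cp Q s, QuadraticMap.polar Q (x : V) (y : V) = 0) → x = 0 := by
    intro x hx
    apply Subtype.ext
    apply hQ.1 (x : V)
    intro y
    show QuadraticMap.polar Q (x : V) y = 0
    have h1 : y = ∑ j, QuadraticMap.polar Q (QFam.dual s j) y • QFam.vec s j + (y - ∑ j, QuadraticMap.polar Q (QFam.dual s j) y • QFam.vec s j) := by abel
    rw [h1, QuadraticMap.polar_add_right, hx ⟨_, proj_mem hs y⟩, add_zero, polar_sum]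
    apply Finset.sum_eq_zero
    intro j _
    rw [QuadraticMap.polar_smul_right, QuadraticMap.polar_comm Q (x : V), cp_vec x.2, smul_zero]
  refine ⟨fun x hx => key x hx, fun x hx => key x (fun y => ?_)⟩
  rw [QuadraticMap.polar_comm]; exact hx y

/-- standard coordinates: the odd-dimensional form -/
theorem odd_coord [FiniteDimensional F V] (h2 : (2 : F) ≠ 0) (hQ : (QuadraticMap.polarBilin Q).Nondegenerate) {m : ℕ} (hfr : finrank F V = 2 * m + 1) :
    ∃ (d : F) (φ : (Unit ⊕ (Fin m ⊕ Fin m) → F) ≃ₗ[F] V), d ≠ 0 ∧ ∀ x, Q (φ x) = d * qOdd m F x := by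
  obtain ⟨s, hs⟩ := exists_fam m Q hQ (by omega)
  have h1 := finrank_cp hs
  have hne : Nontrivial (cp Q s) := Module.nontrivial_of_finrank_pos (R := F) (by omega)
  obtain ⟨w, hw⟩ := exists_ne (0 : cp Q s)
  obtain ⟨u, hu⟩ := exists_nonsing (nondeg_cp hs hQ) ⟨w, hw⟩
  have hu' : Q (u : V) ≠ 0 := hu
  let b : Unit ⊕ (Fin m ⊕ Fin m) → V := Sum.elim (fun _ => (u : V)) (Sum.elim (fun i => (s i).1) (fun i => Q (u : V) • (s i).2))
  let φ0 : (Unit ⊕ (Fin m ⊕ Fin m) → F) →ₗ[F] V := (Pi.basisFun F _).constr F b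
  have hφ0 : ∀ i, φ0 (Pi.single i 1) = b i := by
    intro i
    have := (Pi.basisFun F (Unit ⊕ (Fin m ⊕ Fin m))).constr_basis F b i
    rwa [Pi.basisFun_apply] at this
  have hform : Q.comp φ0 = Q (u : V) • qOdd m F := by
    apply qf_ext (Pi.basisFun F _)
    · intro i
      rw [Pi.basisFun_apply, QuadraticMap.comp_apply, hφ0, QuadraticMap.smul_apply]
      rcases i with i | i | i
      · show Q (u : V) = _
        rw [coe_qOdd]; unfold Cfsg.quadFormOdd; simp
      · show Q (s i).1 = _
        rw [(hs.1 i).1, coe_qOdd]; unfold Cfsg.quadFormOdd; simp [Pi.single_apply]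
      · show Q (Q (u : V) • (s i).2) = _
        rw [qsmul, (hs.1 i).2, coe_qOdd]; unfold Cfsg.quadFormOdd; simp [Pi.single_apply]
    · intro i j
      have e1 : QuadraticMap.polar (⇑(Q.comp φ0)) (Pi.basisFun F _ i) (Pi.basisFun F _ j) = QuadraticMap.polar Q (b i) (b j) := by
        unfold QuadraticMap.polar
        simp only [QuadraticMap.comp_apply, map_add, Pi.basisFun_apply, hφ0]
      have e2 : QuadraticMap.polar (⇑(Q (u : V) • qOdd m F)) (Pi.basisFun F _ i) (Pi.basisFun F _ j) =
          Q (u : V) * QuadraticMap.polar (qOdd m F) (Pi.single i 1) (Pi.single j 1) := by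
        unfold QuadraticMap.polar
        simp only [QuadraticMap.smul_apply, Pi.basisFun_apply, smul_eq_mul]; ring
      rw [e1, e2, polar_qOdd]
      rcases i with i | i | i <;> rcases j with j | j | j
      · show QuadraticMap.polar Q (u : V) (u : V) = _
        rw [pself]; simp; ring
      · show QuadraticMap.polar Q (u : V) (s j).1 = _
        rw [QuadraticMap.polar_comm, (u.2 j).1]; simp
      · show QuadraticMap.polar Q (u : V) (Q (u : V) • (s j).2) = _
        rw [QuadraticMap.polar_smul_right, QuadraticMap.polar_comm, (u.2 j).2]; simp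
      · show QuadraticMap.polar Q (s i).1 (u : V) = _
        rw [(u.2 i).1]; simp
      · show QuadraticMap.polar Q (s i).1 (s j).1 = _
        rw [(hs.2 i j).1]; simp [Pi.single_apply]
      · show QuadraticMap.polar Q (s i).1 (Q (u : V) • (s j).2) = _
        rw [QuadraticMap.polar_smul_right, (hs.2 i j).2.2]
        by_cases h : i = j
        · subst h; simp [Pi.single_apply]
        · simp [Pi.single_apply, h, Ne.symm h]
      · show QuadraticMap.polar Q (Q (u : V) • (s i).2) (u : V) = _
        rw [QuadraticMap.polar_smul_left, (u.2 i).2]; simp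
      · show QuadraticMap.polar Q (Q (u : V) • (s i).2) (s j).1 = _
        rw [QuadraticMap.polar_smul_left, QuadraticMap.polar_comm, (hs.2 j i).2.2]
        by_cases h : i = j
        · subst h; simp [Pi.single_apply]
        · simp [Pi.single_apply, h, Ne.symm h]
      · show QuadraticMap.polar Q (Q (u : V) • (s i).2) (Q (u : V) • (s j).2) = _
        rw [QuadraticMap.polar_smul_left, QuadraticMap.polar_smul_right, (hs.2 i j).2.1]; simp [Pi.single_apply]
  have hq : ∀ x, Q (φ0 x) = Q (u : V) * qOdd m F x := fun x => congrArg (fun D : QuadraticForm F _ => D x) hform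
  have hinj := inj_of_nondeg φ0 (nondeg_qOdd m h2) hu' hq
  exact ⟨Q (u : V), φ0.linearEquivOfInjective hinj (by rw [hfr]; simp; omega), hu', hq⟩

end fam

end CfsgLib.QForm27
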