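import Cfsg.Agent.LibSpinApp27
import Cfsg.Agent.LibQForm27
import Cfsg.Agent.LibDesc27

set_option autoImplicit false

/-! Spinor norms of matrix isometries and field extension. -/

namespace CfsgLib.Lift27

open Cfsg.Agent.H22 CfsgLib.QForm27 CfsgLib.Semi27 CfsgLib.H9027 CfsgLib.Spinor27 Module Matrix

section lift
variable {F₀ F : Type*} [Field F₀] [Field F] {ι : Type} [Fintype ι] [DecidableEq ι] {Q₀ : QuadraticForm F₀ (ι → F₀)} {Q : QuadraticForm F (ι → F)}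
  (j : F₀ →+* F)

theorem comp_single' (i : ι) : (j ∘ (Pi.single i 1 : ι → F₀)) = Pi.single i 1 := by
  ext k
  by_cases h : k = i
  · subst h; simp
  · simp [h]

theorem comp_add' (x y : ι → F₀) : (j ∘ (x + y) : ι → F) = j ∘ x + j ∘ y := by
  ext i; simp

theorem map_mulVec' (M : Matrix ι ι F₀) (x : ι → F₀) : (M.map j) *ᵥ (j ∘ x) = j ∘ (M *ᵥ x) := by
  ext i
  simp [Matrix.mulVec, dotProduct, map_sum]

theorem qf_ext_j {D D' : QuadraticForm F (ι → F)} (h : ∀ x : ι → F₀, D (j ∘ x) = D' (j ∘ x)) : D = D' := by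
  apply qf_ext (Pi.basisFun F ι)
  · intro i
    rw [Pi.basisFun_apply, ← comp_single' j, h]
  · intro i k
    rw [Pi.basisFun_apply, Pi.basisFun_apply, ← comp_single' j i, ← comp_single' j k]
    unfold QuadraticMap.polar
    rw [← comp_add', h, h, h]

variable (hj : ∀ x, Q (j ∘ x) = j (Q₀ x))

include hj in
theorem polar_j (x y : ι → F₀) : QuadraticMap.polar Q (j ∘ x) (j ∘ y) = j (QuadraticMap.polar Q₀ x y) := by
  unfold QuadraticMap.polar
  rw [← comp_add', hj, hj, hj, map_sub, map_sub]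

include hj in
/-- similarities over the small field -/
theorem comap_GOs [Nonempty ι] (hQ₀ : ∃ x, Q₀ x ≠ 0) (g : GL ι F₀) :
    Matrix.GeneralLinearGroup.map j g ∈ Cfsg.Geo.quadSimilarityGroup (F := F) ⇑Q ↔ g ∈ Cfsg.Geo.quadSimilarityGroup (F := F₀) ⇑Q₀ := by
  have hM : ∀ x : ι → F₀, ((Matrix.GeneralLinearGroup.map j g : GL ι F) : Matrix ι ι F) *ᵥ (j ∘ x) = j ∘ ((g : Matrix ι ι F₀) *ᵥ x) :=
    map_mulVec' j _
  constructor
  · rintro ⟨c, hc⟩
    obtain ⟨x0, h0⟩ := hQ₀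
    have hjx0 : j (Q₀ x0) ≠ 0 := (map_ne_zero_iff j j.injective).2 h0
    have h1 := hc (j ∘ x0)
    rw [hM, hj, hj] at h1
    set c0 := Q₀ ((g : Matrix ι ι F₀) *ᵥ x0) / Q₀ x0 with hc0
    have hcc : j c0 = c := by
      rw [hc0, map_div₀, h1, mul_div_cancel_right₀ _ hjx0]
    have hne : c0 ≠ 0 := by
      intro h
      rw [h, map_zero] at hcc
      exact c.ne_zero hcc.symm
    refine ⟨Units.mk0 c0 hne, fun x => ?_⟩
    apply j.injective
    rw [← hj, ← hM, hc, hj, map_mul, Units.val_mk0, hcc]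
  · rintro ⟨c, hc⟩
    refine ⟨Units.map (j : F₀ →* F) c, ?_⟩
    have hC : Q.comp (Matrix.toLin' ((Matrix.GeneralLinearGroup.map j g : GL ι F) : Matrix ι ι F)) = (j c) • Q := by
      apply qf_ext_j j
      intro x
      rw [QuadraticMap.comp_apply, Matrix.toLin'_apply, hM, hj, hc, map_mul, QuadraticMap.smul_apply, hj, smul_eq_mul]
    intro x
    exact congrArg (fun D : QuadraticForm F (ι → F) => D x) hC

include hj in
theorem lift_iso {g : GL ι F₀} (hg : g ∈ Cfsg.isometryGroup F₀ ⇑Q₀) : Matrix.GeneralLinearGroup.map j g ∈ Cfsg.isometryGroup F ⇑Q := by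
  rw [mem_isometryGroup] at hg ⊢
  have hM : ∀ x : ι → F₀, ((Matrix.GeneralLinearGroup.map j g : GL ι F) : Matrix ι ι F) *ᵥ (j ∘ x) = j ∘ ((g : Matrix ι ι F₀) *ᵥ x) :=
    map_mulVec' j _
  have hC : Q.comp (Matrix.toLin' ((Matrix.GeneralLinearGroup.map j g : GL ι F) : Matrix ι ι F)) = Q := by
    apply qf_ext_j j
    intro x
    rw [QuadraticMap.comp_apply, Matrix.toLin'_apply, hM, hj, hg, hj]
  intro x
  exact congrArg (fun D : QuadraticForm F (ι → F) => D x) hC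

/-- field extension on isometry groups -/
noncomputable def liftI : Cfsg.isometryGroup F₀ ⇑Q₀ →* Cfsg.isometryGroup F ⇑Q :=
  ((Matrix.GeneralLinearGroup.map j).comp (Cfsg.isometryGroup F₀ ⇑Q₀).subtype).codRestrict _ fun g => lift_iso j hj g.2

theorem liftI_coe (g : Cfsg.isometryGroup F₀ ⇑Q₀) : ((liftI j hj g : Cfsg.isometryGroup F ⇑Q) : GL ι F) = Matrix.GeneralLinearGroup.map j (g : GL ι F₀) := rfl

/-- reflections as matrices -/
noncomputable def rfM {K : Type*} [Field K] (Q : QuadraticForm K (ι → K)) (v : ι → K) (hv : Q v ≠ 0) : Cfsg.isometryGroup K ⇑Q :=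
  (oIso Q).symm (oRefl Q v hv)

theorem rfM_coe {K : Type*} [Field K] (Q : QuadraticForm K (ι → K)) (v : ι → K) (hv : Q v ≠ 0) :
    (((rfM Q v hv : Cfsg.isometryGroup K ⇑Q) : GL ι K) : Matrix ι ι K) = Cfsg.reflectionMatrix ⇑Q v :=
  (oIso_refl_iff Q _ v hv).1 (by unfold rfM; rw [MulEquiv.apply_symm_apply]; rfl)

theorem liftI_rfM (v : ι → F₀) (hv : Q₀ v ≠ 0) (hv' : Q (j ∘ v) ≠ 0) : liftI j hj (rfM Q₀ v hv) = rfM Q (j ∘ v) hv' := by
  apply Subtype.ext
  apply Units.ext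
  rw [rfM_coe]
  apply eq_of_mulVec_single
  intro i
  rw [← comp_single' j, reflectionMatrix_mulVec]
  show (((rfM Q₀ v hv : Cfsg.isometryGroup F₀ ⇑Q₀) : GL ι F₀) : Matrix ι ι F₀).map j *ᵥ (j ∘ Pi.single i 1) = _
  rw [map_mulVec', rfM_coe, reflectionMatrix_mulVec, polar_j j hj, hj]
  ext k
  simp

end lift

section spin
variable {F : Type*} [Field F] [Fintype F] {ι : Type} [Fintype ι] [DecidableEq ι] {Q : QuadraticForm F (ι → F)}

/-- spinor norm on the matrix group -/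
noncomputable def spinM (h2 : (2 : F) ≠ 0) (hQ : (QuadraticMap.polarBilin Q).Nondegenerate) (h : 2 ≤ finrank F (ι → F)) :
    Cfsg.isometryGroup F ⇑Q →* ℤˣ := (spin h2 hQ h).comp (oIso Q : Cfsg.isometryGroup F ⇑Q →* OGrp Q)

theorem spinM_rfM (h2 : (2 : F) ≠ 0) (hQ : (QuadraticMap.polarBilin Q).Nondegenerate) (h : 2 ≤ finrank F (ι → F)) (v : ι → F) (hv : Q v ≠ 0) :
    spinM h2 hQ h (rfM Q v hv) = chi (Q v) := by
  show spin h2 hQ h (oIso Q ((oIso Q).symm (oRefl Q v hv))) = _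
  rw [MulEquiv.apply_symm_apply, spin_refl]

theorem det_eq_one_iff (h2 : (2 : F) ≠ 0) (hQ : (QuadraticMap.polarBilin Q).Nondegenerate) (g : Cfsg.isometryGroup F ⇑Q) :
    (g : GL ι F).det = 1 ↔ par hQ (Or.inl (exists_ne_one_of_odd h2)) (oIso Q g) = 1 := by
  rw [← special_iff h2 hQ, MulEquiv.symm_apply_apply]
  exact Iff.rfl

theorem mem_omega_M (h2 : (2 : F) ≠ 0) (hQ : (QuadraticMap.polarBilin Q).Nondegenerate) (h : 2 ≤ finrank F (ι → F)) (g : Cfsg.isometryGroup F ⇑Q) :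
    g ∈ Cfsg.Omega F ⇑Q ↔ (g : GL ι F).det = 1 ∧ spinM h2 hQ h g = 1 := by
  rw [mem_omega_mat, mem_omega_iff h2 hQ h, det_eq_one_iff h2 hQ]
  exact Iff.rfl

theorem det_rfM (v : ι → F) (hv : Q v ≠ 0) : ((rfM Q v hv : Cfsg.isometryGroup F ⇑Q) : GL ι F).det = -1 := by
  apply Units.ext
  exact det_oRefl v hv

/-- reflections generate the matrix group -/
theorem closure_rfM (hQ : (QuadraticMap.polarBilin Q).Nondegenerate) (hF : (∃ a : F, a ≠ 0 ∧ a ≠ 1) ∨ finrank F (ι → F) ≠ 4) :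
    Subgroup.closure {g : Cfsg.isometryGroup F ⇑Q | ∃ v, ∃ hv : Q v ≠ 0, g = rfM Q v hv} = ⊤ := by
  have h1 := closure_oRefl hQ hF
  have h3 : (Subgroup.closure {g : OGrp Q | ∃ v, ∃ hv : Q v ≠ 0, g = oRefl Q v hv}).map ((oIso Q).symm : OGrp Q →* Cfsg.isometryGroup F ⇑Q) = ⊤ := by
    rw [h1]
    exact Subgroup.map_top_of_surjective _ (oIso Q).symm.surjective
  rw [MonoidHom.map_closure] at h3
  rw [← h3]
  congr 1
  ext g
  constructor
  · rintro ⟨v, hv, rfl⟩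
    exact ⟨_, ⟨v, hv, rfl⟩, rfl⟩
  · rintro ⟨_, ⟨v, hv, rfl⟩, rfl⟩
    exact ⟨v, hv, rfl⟩

variable {F₀ : Type*} [Field F₀] [Fintype F₀] {Q₀ : QuadraticForm F₀ (ι → F₀)} (j : F₀ →+* F) (hj : ∀ x, Q (j ∘ x) = j (Q₀ x))

/-- if all elements of the small field are squares, the spinor norm dies -/
theorem spin_lift_trivial (h2 : (2 : F) ≠ 0) (hQ : (QuadraticMap.polarBilin Q).Nondegenerate) (h : 2 ≤ finrank F (ι → F))
    (hQ₀ : (QuadraticMap.polarBilin Q₀).Nondegenerate) (hF₀ : ∃ a : F₀, a ≠ 0 ∧ a ≠ 1) (hsq : ∀ a : F₀, IsSquare (j a)) (g : Cfsg.isometryGroup F₀ ⇑Q₀) :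
    spinM h2 hQ h (liftI j hj g) = 1 := by
  have h1 : (spinM h2 hQ h).comp (liftI j hj) = 1 := by
    apply MonoidHom.eq_of_eqOn_dense (closure_rfM hQ₀ (Or.inl hF₀))
    rintro _ ⟨v, hv, rfl⟩
    have hv' : Q (j ∘ v) ≠ 0 := by rw [hj]; exact (map_ne_zero_iff j j.injective).2 hv
    show spinM h2 hQ h (liftI j hj (rfM Q₀ v hv)) = 1
    rw [liftI_rfM j hj v hv hv', spinM_rfM, hj, chi_eq_one]
    exact hsq _
  exact congrArg (fun φ : Cfsg.isometryGroup F₀ ⇑Q₀ →* ℤˣ => φ g) h1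

end spin

section fixed
variable {F : Type*} [Field F] {ι : Type} [Fintype ι] [DecidableEq ι]

theorem fixed_gl {σ : F ≃+* F} {g : GL ι F} (hg : gm σ g = g) : ∃ g₀ : GL ι (fixF σ), Matrix.GeneralLinearGroup.map (fixF σ).subtype g₀ = g := by
  have hent : ∀ a b, σ ((g : Matrix ι ι F) a b) = (g : Matrix ι ι F) a b := by
    intro a b
    exact congrArg (fun x : GL ι F => (x : Matrix ι ι F) a b) hg
  let M : Matrix ι ι (fixF σ) := fun a b => ⟨(g : Matrix ι ι F) a b, hent a b⟩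
  have hM : M.map (fixF σ).subtype = (g : Matrix ι ι F) := rfl
  have hdet : M.det ≠ 0 := by
    intro h
    have h1 : ((g : Matrix ι ι F)).det = 0 := by
      rw [← hM]
      have := (fixF σ).subtype.map_det M
      rw [h, map_zero] at this
      exact this.symm
    exact (Matrix.GeneralLinearGroup.det g).ne_zero h1
  refine ⟨Matrix.GeneralLinearGroup.mkOfDetNeZero M hdet, ?_⟩
  apply Units.ext
  exact hM

end fixed

end CfsgLib.Lift27
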