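import Mathlib
import Cfsg.Agent.EqBase
import Cfsg.Agent.LibCharBasic3
import Cfsg.Agent.LibCharMore
import Cfsg.Agent.LibCharInt2

/-!
# Multiplicativity on coprime elements, I (helper17)
-/

set_option autoImplicit false
set_option linter.unusedSectionVars false
set_option linter.style.haveILetI false
set_option linter.unusedVariables false

namespace CfsgLib.Mco

open Cfsg CfsgLib.CharBasic CfsgLib.CharNorm CfsgLib.CharMore
open CfsgLib.CharInt (cInd cInd_of cInd_not sum_classFun_char irr_one_eq_charDegree irr_charDegree_pos)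
open scoped ComplexConjugate

universe u

variable {G : Type u} [Group G] [Fintype G]

theorem mul_conj_norm (z : ℂ) : z * conj z = ((‖z‖ ^ 2 : ℝ) : ℂ) := by
  rw [Complex.mul_conj, Complex.normSq_eq_norm_sq]

theorem lin_norm {χ : G → ℂ} (h : IsCharacter G χ) (h1 : χ 1 = 1) (g : G) : ‖χ g‖ = 1 := by
  obtain ⟨f, hf⟩ := exists_hom_of_linear h h1
  rw [hf]
  apply norm_one_of_pow (n := orderOf g) (orderOf_pos g).ne'
  rw [← Units.val_pow_eq_pow_val, ← map_pow, pow_orderOf_eq_one, map_one, Units.val_one]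

open Classical in
theorem cent_formula (g : G) : (Nat.card (Subgroup.centralizer ({g} : Set G)) : ℝ) =
    ((commutator G).index : ℝ) + ∑ χ ∈ Finset.univ.filter (fun χ : IrrCharacter G => ¬ (χ : G → ℂ) 1 = 1), ‖(χ : G → ℂ) g‖ ^ 2 := by
  have h1 := column_orthogonality g g
  rw [if_pos (IsConj.refl g), Finset.sum_congr rfl fun χ _ => mul_conj_norm _] at h1
  have h2 : ∑ χ : IrrCharacter G, ‖(χ : G → ℂ) g‖ ^ 2 = (Nat.card (Subgroup.centralizer ({g} : Set G)) : ℝ) := by
    exact_mod_cast h1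
  rw [← h2, ← Finset.sum_filter_add_sum_filter_not Finset.univ (fun χ : IrrCharacter G => (χ : G → ℂ) 1 = 1)]
  congr 1
  rw [Finset.sum_congr rfl (g := fun _ => (1 : ℝ)), Finset.sum_const, nsmul_eq_mul, mul_one, ← card_linear,
    Nat.card_eq_fintype_card, Fintype.card_subtype]
  intro χ hχ
  rw [lin_norm (irr_isCharacter χ.2) (Finset.mem_filter.1 hχ).2, one_pow]

theorem card_cent_eq {g : G} (h : ∀ χ : IrrCharacter G, ¬ (χ : G → ℂ) 1 = 1 → (χ : G → ℂ) g = 0) :
    Nat.card (Subgroup.centralizer ({g} : Set G)) = (commutator G).index := by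
  classical
  have h1 := cent_formula g
  rw [Finset.sum_eq_zero, add_zero] at h1
  · exact_mod_cast h1
  · intro χ hχ
    rw [h χ (Finset.mem_filter.1 hχ).2]
    simp

theorem nl_vanish {g : G} (h : Nat.card (Subgroup.centralizer ({g} : Set G)) ≤ (commutator G).index)
    (χ : IrrCharacter G) (hχ : ¬ (χ : G → ℂ) 1 = 1) : (χ : G → ℂ) g = 0 := by
  classical
  have h1 := cent_formula g
  have h2 : (Nat.card (Subgroup.centralizer ({g} : Set G)) : ℝ) ≤ (commutator G).index := by exact_mod_cast h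
  have h3 : ∑ χ ∈ Finset.univ.filter (fun χ : IrrCharacter G => ¬ (χ : G → ℂ) 1 = 1), ‖(χ : G → ℂ) g‖ ^ 2 = 0 := by
    apply le_antisymm
    · linarith
    · exact Finset.sum_nonneg fun _ _ => sq_nonneg _
  have h4 := (Finset.sum_eq_zero_iff_of_nonneg fun _ _ => sq_nonneg _).1 h3 χ
    (Finset.mem_filter.2 ⟨Finset.mem_univ _, hχ⟩)
  exact norm_eq_zero.1 (pow_eq_zero_iff (by norm_num) |>.1 h4)

/-- the degree bound -/
theorem deg_sq_lt (χ : IrrCharacter G) (hχ : ¬ (χ : G → ℂ) 1 = 1) :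
    charDegree (χ : G → ℂ) ^ 2 < Nat.card G := by
  classical
  have h1 := cent_formula (1 : G)
  have h2 : Subgroup.centralizer ({1} : Set G) = ⊤ := by
    rw [eq_top_iff]; intro x _
    rw [Subgroup.mem_centralizer_singleton_iff]; simp
  rw [h2, Subgroup.card_top] at h1
  have h3 : ‖(χ : G → ℂ) 1‖ ^ 2 ≤ ∑ χ ∈ Finset.univ.filter (fun χ : IrrCharacter G => ¬ (χ : G → ℂ) 1 = 1), ‖(χ : G → ℂ) 1‖ ^ 2 :=
    Finset.single_le_sum (f := fun χ : IrrCharacter G => ‖(χ : G → ℂ) 1‖ ^ 2) (fun _ _ => sq_nonneg _)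
      (Finset.mem_filter.2 ⟨Finset.mem_univ _, hχ⟩)
  have h4 : (0 : ℝ) < ((commutator G).index : ℝ) := by
    exact_mod_cast Nat.pos_of_ne_zero Subgroup.index_ne_zero_of_finite
  rw [irr_one_eq_charDegree χ.2, Complex.norm_natCast] at h3
  have h5 : ((charDegree (χ : G → ℂ) : ℕ) : ℝ) ^ 2 < (Nat.card G : ℝ) := by linarith
  exact_mod_cast h5

/-- all irreducible characters linear implies commutative -/
theorem comm_of_lin (h : ∀ χ : IrrCharacter G, (χ : G → ℂ) 1 = 1) : ∀ a b : G, a * b = b * a := by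
  intro a b
  have h1 : IsConj (a * b * (b * a)⁻¹) 1 := by
    rw [isConj_iff_irr]
    intro χ
    obtain ⟨f, hf⟩ := exists_hom_of_linear (irr_isCharacter χ.2) (h χ)
    rw [hf, hf]
    congr 1
    rw [map_mul, map_mul, map_inv, map_mul, map_one, mul_comm (f b)]
    exact mul_inv_cancel _
  have h2 := isConj_one_left.1 h1
  exact mul_inv_eq_one.1 h2

theorem lin_of_comm (h : ∀ a b : G, a * b = b * a) (χ : IrrCharacter G) : (χ : G → ℂ) 1 = 1 := by
  by_contra hne
  have h1 : Nat.card (Subgroup.centralizer ({1} : Set G)) ≤ (commutator G).index := by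
    have h2 : commutator G = ⊥ := by
      rw [commutator_def, eq_bot_iff, Subgroup.commutator_le]
      intro a _ b _
      rw [Subgroup.mem_bot, commutatorElement_def, h a b]; group
    rw [h2, Subgroup.index_bot]
    exact Nat.card_le_card_of_injective _ (Subgroup.centralizer ({1} : Set G)).subtype_injective
  exact irr_one_ne_zero χ.2 (nl_vanish h1 χ hne)

/-- products vanish -/
theorem prod_zero (χ : IrrCharacter G) (hχ : ¬ (χ : G → ℂ) 1 = 1) {x y : G}
    (h : ∀ z, IsConj x z → (χ : G → ℂ) (z * y) = (χ : G → ℂ) z * (χ : G → ℂ) y) :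
    (χ : G → ℂ) x * (χ : G → ℂ) y = 0 := by
  classical
  have hcl : ∀ z, IsConj x z → (χ : G → ℂ) z = (χ : G → ℂ) x := by
    intro z hz
    exact ((isConj_iff_irr x z).1 hz χ).symm
  have h1 : ∑ z : G, cInd x z * (χ : G → ℂ) (z * y) =
      ((∑ z : G, cInd x z * (χ : G → ℂ) z) / (χ : G → ℂ) 1) * (χ : G → ℂ) y := by
    obtain ⟨n, ρ, hirr, hρ⟩ := χ.2
    haveI := hirr
    have h2 := sum_classFun_char ρ (cInd x) (fun g h => by
      by_cases hc : IsConj x g
      · rw [cInd_of hc, cInd_of (hc.trans (isConj_iff.2 ⟨h, rfl⟩))]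
      · rw [cInd_not hc, cInd_not (fun h' => hc (h'.trans (isConj_iff.2 ⟨h, rfl⟩ : IsConj g (h * g * h⁻¹)).symm))]) y
    rw [hρ] at h2
    exact h2
  have h2 : ∀ z : G, cInd x z * (χ : G → ℂ) (z * y) = cInd x z * ((χ : G → ℂ) x * (χ : G → ℂ) y) := by
    intro z
    by_cases hc : IsConj x z
    · rw [h z hc, hcl z hc]
    · rw [cInd_not hc, zero_mul, zero_mul]
  have h3 : ∀ z : G, cInd x z * (χ : G → ℂ) z = cInd x z * (χ : G → ℂ) x := by
    intro z
    by_cases hc : IsConj x z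
    · rw [hcl z hc]
    · rw [cInd_not hc, zero_mul, zero_mul]
  rw [Finset.sum_congr rfl fun z _ => h2 z, Finset.sum_congr rfl fun z _ => h3 z, ← Finset.sum_mul,
    ← Finset.sum_mul] at h1
  have hn : (∑ z : G, cInd x z) ≠ 0 := by
    have h4 : ∑ z : G, cInd x z = ((Finset.univ.filter fun z => IsConj x z).card : ℂ) := by
      rw [Finset.card_filter]
      push_cast
      apply Finset.sum_congr rfl
      intro z _
      by_cases hc : IsConj x z
      · rw [cInd_of hc, if_pos hc]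
      · rw [cInd_not hc, if_neg hc]
    rw [h4, Nat.cast_ne_zero, ← Nat.pos_iff_ne_zero, Finset.card_pos]
    exact ⟨x, Finset.mem_filter.2 ⟨Finset.mem_univ _, IsConj.refl x⟩⟩
  have hχ1 := irr_one_ne_zero χ.2
  have h5 : (∑ z : G, cInd x z) * ((χ : G → ℂ) x * (χ : G → ℂ) y) * ((χ : G → ℂ) 1 - 1) = 0 := by
    have h6 : (∑ z : G, cInd x z) * ((χ : G → ℂ) x * (χ : G → ℂ) y) * (χ : G → ℂ) 1 =
        (∑ z : G, cInd x z) * (χ : G → ℂ) x / (χ : G → ℂ) 1 * (χ : G → ℂ) y * (χ : G → ℂ) 1 :=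
      congrArg (fun t => t * (χ : G → ℂ) 1) h1
    have h7 : (∑ z : G, cInd x z) * (χ : G → ℂ) x / (χ : G → ℂ) 1 * (χ : G → ℂ) y * (χ : G → ℂ) 1 =
        (∑ z : G, cInd x z) * (χ : G → ℂ) x * (χ : G → ℂ) y := by
      field_simp
    rw [h7] at h6
    rw [mul_sub, h6]; ring
  rcases mul_eq_zero.1 h5 with h6 | h6
  · exact (mul_eq_zero.1 h6).resolve_left hn
  · exact absurd (sub_eq_zero.1 h6) hχ

/-- vanishing on the `q`-elements gives `q`-defect zero -/
theorem dz_of_vanish {q : ℕ} (hq : q.Prime) (χ : IrrCharacter G)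
    (h : ∀ x : G, x ≠ 1 → (∃ k : ℕ, orderOf x = q ^ k) → (χ : G → ℂ) x = 0) :
    q ^ (Nat.card G).factorization q ∣ charDegree (χ : G → ℂ) := by
  classical
  haveI : Fact q.Prime := ⟨hq⟩
  obtain ⟨Q⟩ : Nonempty (Sylow q G) := inferInstance
  haveI : Fintype (Q : Subgroup G) := Fintype.ofFinite _
  have h1 : IsCharacter (Q : Subgroup G) (fun x : (Q : Subgroup G) => (χ : G → ℂ) x) := isCharacter_restrict (irr_isCharacter χ.2) _
  obtain ⟨m, hm⟩ := char_mult h1 (isCharacter_one (G := (Q : Subgroup G)))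
  have h2 : ∑ x : (Q : Subgroup G), (χ : G → ℂ) x * conj (1 : ℂ) = (χ : G → ℂ) 1 := by
    rw [Finset.sum_eq_single (1 : (Q : Subgroup G))]
    · simp
    · intro x _ hx
      have hx1 : (x : G) ≠ 1 := fun h => hx (Subtype.ext h)
      obtain ⟨k, hk⟩ := IsPGroup.iff_orderOf.1 Q.2 x
      rw [h x hx1 ⟨k, by rw [Subgroup.orderOf_coe]; exact hk⟩, zero_mul]
    · intro h; exact absurd (Finset.mem_univ _) h
  unfold classInner at hm
  rw [h2, irr_one_eq_charDegree χ.2, Q.card_eq_multiplicity] at hm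
  have h3 : ((q ^ (Nat.card G).factorization q : ℕ) : ℂ) ≠ 0 := by
    exact_mod_cast (pow_pos hq.pos _).ne'
  have h4 : (charDegree (χ : G → ℂ) : ℂ) = ((q ^ (Nat.card G).factorization q * m : ℕ) : ℂ) := by
    rw [Nat.cast_mul, ← hm, mul_inv_cancel_left₀ h3]
  exact ⟨m, by exact_mod_cast h4⟩

end CfsgLib.Mco
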