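import Mathlib
import Cfsg.Agent.LibMco1
import Cfsg.Agent.LibFSDef0
import Cfsg.Agent.LibResid19
import Cfsg.Agent.LibCoprime
import Cfsg.Agent.LibFPF1

/-!
# Multiplicativity on coprime elements, II: the forward direction (helper17)
-/

set_option autoImplicit false
set_option linter.unusedSectionVars false
set_option linter.style.haveILetI false
set_option linter.unusedVariables false

namespace CfsgLib.Mco

open Cfsg CfsgLib.CharBasic CfsgLib.CharNorm CfsgLib.CharMore
open CfsgLib.CharInt (cInd cInd_of cInd_not sum_classFun_char irr_one_eq_charDegree irr_charDegree_pos)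
open scoped ComplexConjugate

universe u

variable {G : Type u} [Group G] [Fintype G]

/-- statement (1) -/
def Mult (G : Type u) [Group G] : Prop := ∀ (x y : G) (χ : IrrCharacter G), x ≠ 1 → y ≠ 1 →
  (∃ p q a b : ℕ, p.Prime ∧ q.Prime ∧ p ≠ q ∧ orderOf x = p ^ a ∧ orderOf y = q ^ b) →
  (χ : G → ℂ) (x * y) = (χ : G → ℂ) x * (χ : G → ℂ) y

theorem isConj_orderOf {x z : G} (h : IsConj x z) : orderOf z = orderOf x := by
  obtain ⟨c, rfl⟩ := isConj_iff.1 h
  have := orderOf_injective (MulAut.conj c).toMonoidHom (MulAut.conj c).injective x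
  simpa using this

theorem Mult.zero (h : Mult G) (χ : IrrCharacter G) (hχ : ¬ (χ : G → ℂ) 1 = 1) {x y : G}
    (hx : x ≠ 1) (hy : y ≠ 1) {p q a b : ℕ} (hp : p.Prime) (hq : q.Prime) (hpq : p ≠ q)
    (hxo : orderOf x = p ^ a) (hyo : orderOf y = q ^ b) : (χ : G → ℂ) x = 0 ∨ (χ : G → ℂ) y = 0 := by
  apply mul_eq_zero.1
  apply prod_zero χ hχ
  intro z hz
  refine h z y χ ?_ hy ⟨p, q, a, b, hp, hq, hpq, ?_, hyo⟩
  · rintro rfl
    exact hx (isConj_one_left.1 hz)
  · rw [isConj_orderOf hz, hxo]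

theorem dvd_of_all {n d p : ℕ} (hn : n ≠ 0) (hd : d ≠ 0) (hp : p.Prime)
    (h : ∀ q, q.Prime → q ≠ p → q ^ n.factorization q ∣ d) : n / p ^ n.factorization p ∣ d := by
  have hn' : n / p ^ n.factorization p ≠ 0 := (Nat.ordCompl_pos p hn).ne'
  rw [← Nat.factorization_le_iff_dvd hn' hd, Nat.factorization_ordCompl]
  intro q
  by_cases hq : q.Prime
  · by_cases hqp : q = p
    · rw [hqp, Finsupp.erase_same]; exact Nat.zero_le _
    · rw [Finsupp.erase_ne hqp]
      exact (hq.pow_dvd_iff_le_factorization hd).1 (h q hq hqp)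
  · by_cases hqp : q = p
    · exact absurd (hqp ▸ hp) hq
    · rw [Finsupp.erase_ne hqp, Nat.factorization_eq_zero_of_not_prime _ hq]; exact Nat.zero_le _

/-- the prime attached to a nonlinear character -/
theorem Mult.exists_prime (h : Mult G) (χ : IrrCharacter G) (hχ : ¬ (χ : G → ℂ) 1 = 1) :
    ∃ p : ℕ, p.Prime ∧ (∀ q, q.Prime → q ≠ p → q ^ (Nat.card G).factorization q ∣ charDegree (χ : G → ℂ)) ∧
      Nat.card G / p ^ (Nat.card G).factorization p < p ^ (Nat.card G).factorization p := by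
  classical
  have hG0 : Nat.card G ≠ 0 := Nat.card_pos.ne'
  have hd0 : charDegree (χ : G → ℂ) ≠ 0 := (irr_charDegree_pos χ.2).ne'
  have hlt := deg_sq_lt χ hχ
  have hex : ∃ p : ℕ, p.Prime ∧ ¬ p ^ (Nat.card G).factorization p ∣ charDegree (χ : G → ℂ) := by
    by_contra hcon
    push Not at hcon
    have h1 : Nat.card G ∣ charDegree (χ : G → ℂ) := by
      rw [← Nat.factorization_le_iff_dvd hG0 hd0]
      intro q
      by_cases hq : q.Prime
      · exact (hq.pow_dvd_iff_le_factorization hd0).1 (hcon q hq)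
      · rw [Nat.factorization_eq_zero_of_not_prime _ hq]; exact Nat.zero_le _
    have h2 := Nat.le_of_dvd (Nat.pos_of_ne_zero hd0) h1
    nlinarith [Nat.pos_of_ne_zero hd0]
  obtain ⟨p, hp, hpd⟩ := hex
  have hx : ∃ x : G, x ≠ 1 ∧ (∃ k : ℕ, orderOf x = p ^ k) ∧ (χ : G → ℂ) x ≠ 0 := by
    by_contra hcon
    push Not at hcon
    exact hpd (dz_of_vanish hp χ fun x hx1 hk => hcon x hx1 hk)
  obtain ⟨x, hx1, ⟨a, ha⟩, hx0⟩ := hx
  have hall : ∀ q, q.Prime → q ≠ p → q ^ (Nat.card G).factorization q ∣ charDegree (χ : G → ℂ) := by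
    intro q hq hqp
    apply dz_of_vanish hq χ
    rintro y hy1 ⟨b, hb⟩
    exact (h.zero χ hχ hx1 hy1 hp hq (Ne.symm hqp) ha hb).resolve_left hx0
  refine ⟨p, hp, hall, ?_⟩
  have h3 := dvd_of_all hG0 hd0 hp hall
  have h4 := Nat.le_of_dvd (Nat.pos_of_ne_zero hd0) h3
  have h5 : p ^ (Nat.card G).factorization p * (Nat.card G / p ^ (Nat.card G).factorization p) = Nat.card G :=
    Nat.ordProj_mul_ordCompl_eq_self _ _
  set m := Nat.card G / p ^ (Nat.card G).factorization p with hm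
  set n := p ^ (Nat.card G).factorization p with hn
  by_contra hle
  push Not at hle
  have h6 : m * m ≤ charDegree (χ : G → ℂ) * charDegree (χ : G → ℂ) := Nat.mul_le_mul h4 h4
  have h7 : n * m ≤ m * m := Nat.mul_le_mul_right m hle
  rw [pow_two] at hlt
  omega

theorem Mult.prime (h : Mult G) (hnc : ¬ ∀ a b : G, a * b = b * a) :
    ∃ p : ℕ, p.Prime ∧ ∀ χ : IrrCharacter G, ¬ (χ : G → ℂ) 1 = 1 →
      ∀ q, q.Prime → q ≠ p → q ^ (Nat.card G).factorization q ∣ charDegree (χ : G → ℂ) := by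
  have h0 : ∃ χ : IrrCharacter G, ¬ (χ : G → ℂ) 1 = 1 := by
    by_contra hcon
    push Not at hcon
    exact hnc (comm_of_lin hcon)
  obtain ⟨χ, hχ⟩ := h0
  obtain ⟨p, hp, hall, hlt⟩ := h.exists_prime χ hχ
  refine ⟨p, hp, fun ψ hψ => ?_⟩
  obtain ⟨p', hp', hall', hlt'⟩ := h.exists_prime ψ hψ
  by_cases hpp : p' = p
  · rw [hpp] at hall'; exact hall'
  exfalso
  have hG0 : Nat.card G ≠ 0 := Nat.card_pos.ne'
  have e1 : p ^ (Nat.card G).factorization p * (Nat.card G / p ^ (Nat.card G).factorization p) = Nat.card G :=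
    Nat.ordProj_mul_ordCompl_eq_self _ _
  have e2 : p' ^ (Nat.card G).factorization p' * (Nat.card G / p' ^ (Nat.card G).factorization p') = Nat.card G :=
    Nat.ordProj_mul_ordCompl_eq_self _ _
  set m := Nat.card G / p ^ (Nat.card G).factorization p with hm
  set n := p ^ (Nat.card G).factorization p with hn
  set m' := Nat.card G / p' ^ (Nat.card G).factorization p' with hm'
  set n' := p' ^ (Nat.card G).factorization p' with hn'
  have hm0 : 0 < m := Nat.ordCompl_pos p hG0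
  have hm0' : 0 < m' := Nat.ordCompl_pos p' hG0
  have hc : Nat.Coprime n n' := Nat.Coprime.pow _ _ ((Nat.coprime_primes hp hp').2 (Ne.symm hpp))
  have h1 : n' ∣ m := by
    have : n' ∣ n * m := by rw [e1]; exact ⟨m', e2.symm⟩
    exact hc.symm.dvd_of_dvd_mul_left this
  have h2 : n ∣ m' := by
    have : n ∣ n' * m' := by rw [e2]; exact ⟨m, e1.symm⟩
    exact hc.dvd_of_dvd_mul_left this
  have h3 := Nat.le_of_dvd hm0 h1
  have h4 := Nat.le_of_dvd hm0' h2
  omega

end CfsgLib.Mco
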