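import Mathlib
import Cfsg.Agent.LibMco2

/-!
# Multiplicativity on coprime elements, III: the forward direction (helper17)
-/

set_option autoImplicit false
set_option linter.unusedSectionVars false
set_option linter.style.haveILetI false
set_option linter.unusedVariables false

namespace CfsgLib.Mco

open Cfsg CfsgLib.CharBasic CfsgLib.CharNorm CfsgLib.CharMore
open CfsgLib.CharInt (cInd cInd_of cInd_not sum_classFun_char irr_one_eq_charDegree irr_charDegree_pos)
open scoped ComplexConjugate commutatorElement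

universe u

variable {G : Type u} [Group G] [Fintype G]

theorem mem_of_order {p : ℕ} [hp : Fact p.Prime] (P : Sylow p G) (hP : (P : Subgroup G).Normal) {g : G}
    (hg : g ∉ (P : Subgroup G)) : ∃ q, q.Prime ∧ q ≠ p ∧ q ∣ orderOf g := by
  by_contra hcon
  push Not at hcon
  apply hg
  have h1 : ∃ k, orderOf g = p ^ k := by
    refine ⟨_, Nat.eq_prime_pow_of_unique_prime_dvd (orderOf_pos g).ne' ?_⟩
    intro q hq hqd
    by_contra hne
    exact hcon q hq hne hqd
  have h2 : IsPGroup p (Subgroup.zpowers g) := by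
    obtain ⟨k, hk⟩ := h1
    exact IsPGroup.of_card (n := k) (by rw [Nat.card_zpowers, hk])
  obtain ⟨Q, hQ⟩ := h2.exists_le_sylow
  haveI := Sylow.unique_of_normal P hP
  have h3 : Q = P := Subsingleton.elim _ _
  rw [← h3]
  exact hQ (Subgroup.mem_zpowers g)

/-- the counting argument -/
theorem counting {P A C D W : Subgroup G} (hPA : P ⊓ A = ⊥) (hC : C = P ⊓ Subgroup.centralizer (A : Set G))
    (hAcomm : ∀ a ∈ A, ∀ b ∈ A, a * b = b * a) (hA1 : A ≠ ⊥) (hDP : D ≤ P) (hWn : W.Normal)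
    (hDW : D ≤ W) (hPW : ⁅P, P⁆ ≤ W) (hGW : (commutator G).index ≤ W.index)
    (hWidx : W.index = W.relIndex C * Nat.card A)
    (hcent : ∀ a ∈ A, a ≠ 1 → Nat.card (Subgroup.centralizer ({a} : Set G)) = (commutator G).index) :
    C ⊓ D = ⊥ ∧ (∀ x ∈ C, ∀ y ∈ C, x * y = y * x) ∧ ∀ a ∈ A, a ≠ 1 → ∀ d ∈ D, a * d = d * a → d = 1 := by
  classical
  have hCP : C ≤ P := by rw [hC]; exact inf_le_left
  have hCA : ∀ c ∈ C, ∀ a ∈ A, a * c = c * a := by
    intro c hc a ha
    rw [hC] at hc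
    exact Subgroup.mem_centralizer_iff.1 hc.2 a ha
  have hWC : W.relIndex C ≤ Nat.card C :=
    Nat.le_of_dvd Nat.card_pos (Subgroup.index_dvd_card (W.subgroupOf C))
  have hA0 : 0 < Nat.card A := Nat.card_pos
  -- the map `C × A → C_G(a)`
  have hmap : ∀ a ∈ A, ∀ x : C × A, (x.1 : G) * (x.2 : G) ∈ Subgroup.centralizer ({a} : Set G) := by
    intro a ha x
    rw [Subgroup.mem_centralizer_singleton_iff]
    have h1 : a * (x.1 : G) = x.1 * a := hCA _ x.1.2 a ha
    have h2 : (x.2 : G) * a = a * x.2 := hAcomm _ x.2.2 _ ha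
    rw [mul_assoc, h2, ← mul_assoc, ← h1, mul_assoc]
  have hinj : ∀ x y : C × A, (x.1 : G) * (x.2 : G) = (y.1 : G) * (y.2 : G) → x = y := by
    intro x y hxy
    have h1 : (y.1 : G)⁻¹ * x.1 = y.2 * (x.2 : G)⁻¹ := by
      rw [inv_mul_eq_iff_eq_mul, ← mul_assoc, ← hxy]; group
    have h2 : (y.1 : G)⁻¹ * x.1 ∈ P ⊓ A :=
      ⟨P.mul_mem (P.inv_mem (hCP y.1.2)) (hCP x.1.2), by rw [h1]; exact A.mul_mem y.2.2 (A.inv_mem x.2.2)⟩
    rw [hPA, Subgroup.mem_bot] at h2
    have h3 : y.1 = x.1 := Subtype.ext (inv_mul_eq_one.1 h2)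
    rw [h2] at h1
    have h4 : y.2 = x.2 := Subtype.ext (mul_inv_eq_one.1 h1.symm)
    exact Prod.ext h3.symm h4.symm
  obtain ⟨a0, ha0, ha01⟩ : ∃ a ∈ A, a ≠ 1 := by
    by_contra hcon
    push Not at hcon
    exact hA1 (by rw [eq_bot_iff]; intro x hx; exact Subgroup.mem_bot.2 (hcon x hx))
  have hle : ∀ a ∈ A, Nat.card C * Nat.card A ≤ Nat.card (Subgroup.centralizer ({a} : Set G)) := by
    intro a ha
    rw [← Nat.card_prod]
    apply Nat.card_le_card_of_injective (fun x : C × A => (⟨(x.1 : G) * (x.2 : G), hmap a ha x⟩ : Subgroup.centralizer ({a} : Set G)))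
    intro x y hxy
    exact hinj x y (congrArg Subtype.val hxy)
  have hrel : W.relIndex C = Nat.card C := by
    apply le_antisymm hWC
    have h1 := hle a0 ha0
    rw [hcent a0 ha0 ha01] at h1
    have h2 := h1.trans hGW
    rw [hWidx] at h2
    exact Nat.le_of_mul_le_mul_right h2 hA0
  have hCW : C ⊓ W = ⊥ := by
    have h1 := Subgroup.card_mul_index (W.subgroupOf C)
    have h2 : (W.subgroupOf C).index = Nat.card C := hrel
    rw [h2] at h1
    have h3 : Nat.card (W.subgroupOf C) = 1 := by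
      apply Nat.eq_of_mul_eq_mul_right (Nat.card_pos (α := C))
      rw [h1, one_mul]
    have h4 : W.subgroupOf C = ⊥ := Subgroup.card_eq_one.1 h3
    rw [eq_bot_iff]
    intro x hx
    have h5 : (⟨x, hx.1⟩ : C) ∈ W.subgroupOf C := Subgroup.mem_subgroupOf.2 hx.2
    rw [h4, Subgroup.mem_bot] at h5
    exact Subgroup.mem_bot.2 (congrArg Subtype.val h5)
  have hCDbot : C ⊓ D = ⊥ := by
    rw [eq_bot_iff, ← hCW]
    exact inf_le_inf_left _ hDW
  have hCcomm : ∀ x ∈ C, ∀ y ∈ C, x * y = y * x := by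
    intro x hx y hy
    have h1 : ⁅x, y⁆ ∈ C ⊓ W := by
      refine ⟨?_, hPW (Subgroup.commutator_mem_commutator (hCP hx) (hCP hy))⟩
      rw [commutatorElement_def]
      exact C.mul_mem (C.mul_mem (C.mul_mem hx hy) (C.inv_mem hx)) (C.inv_mem hy)
    rw [hCW, Subgroup.mem_bot, commutatorElement_eq_one_iff_mul_comm] at h1
    exact h1
  have hcardeq : ∀ a ∈ A, a ≠ 1 → Nat.card (Subgroup.centralizer ({a} : Set G)) = Nat.card C * Nat.card A := by
    intro a ha ha1
    apply le_antisymm _ (hle a ha)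
    rw [hcent a ha ha1]
    refine hGW.trans ?_
    rw [hWidx, hrel]
  have hfix : ∀ a ∈ A, a ≠ 1 → ∀ d ∈ D, a * d = d * a → d = 1 := by
    intro a ha ha1 d hd had
    let f : C × A → Subgroup.centralizer ({a} : Set G) := fun x => ⟨(x.1 : G) * (x.2 : G), hmap a ha x⟩
    have hf : Function.Injective f := fun x y hxy => hinj x y (congrArg Subtype.val hxy)
    have hfs : Function.Surjective f := by
      have h1 : Function.Bijective f := (Nat.bijective_iff_injective_and_card f).2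
        ⟨hf, by rw [Nat.card_prod]; exact (hcardeq a ha ha1).symm⟩
      exact h1.2
    obtain ⟨⟨c, x⟩, hcx⟩ := hfs ⟨d, by rw [Subgroup.mem_centralizer_singleton_iff]; exact had.symm⟩
    have h1 : (c : G) * (x : G) = d := congrArg Subtype.val hcx
    have h2 : (x : G) ∈ P ⊓ A := by
      refine ⟨?_, x.2⟩
      have h3 : (x : G) = (c : G)⁻¹ * d := by rw [← h1]; group
      rw [h3]
      exact P.mul_mem (P.inv_mem (hCP c.2)) (hDP hd)
    rw [hPA, Subgroup.mem_bot] at h2
    rw [h2, mul_one] at h1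
    have h3 : d ∈ C ⊓ D := ⟨by rw [← h1]; exact c.2, hd⟩
    rw [hCDbot] at h3
    exact h3
  exact ⟨hCDbot, hCcomm, hfix⟩

set_option maxHeartbeats 1000000 in
theorem forward (h : Mult G) (hnc : ¬ ∀ a b : G, a * b = b * a)
    (hnp : ¬ ∃ p : ℕ, p.Prime ∧ IsPGroup p G) :
    ∃ (p : ℕ) (_ : Fact p.Prime) (P : Sylow p G) (A : Subgroup G), (P : Subgroup G).Normal ∧
      IsCyclic A ∧ A ≠ ⊥ ∧ (Nat.card A).Coprime p ∧ A ⊔ (P : Subgroup G) = ⊤ ∧
      IsMulCommutative ↥((P : Subgroup G) ⊓ Subgroup.centralizer (A : Set G)) ∧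
      (⁅A, (P : Subgroup G)⁆).Normal ∧
      ((P : Subgroup G) ⊓ Subgroup.centralizer (A : Set G)) ⊔ ⁅A, (P : Subgroup G)⁆ = (P : Subgroup G) ∧
      ((P : Subgroup G) ⊓ Subgroup.centralizer (A : Set G)) ⊓ ⁅A, (P : Subgroup G)⁆ = ⊥ ∧
      ∀ a ∈ A, a ≠ 1 → ∀ d ∈ ⁅A, (P : Subgroup G)⁆, a * d = d * a → d = 1 := by
  classical
  obtain ⟨p, hp, hdz⟩ := h.prime hnc
  haveI : Fact p.Prime := ⟨hp⟩
  have hG0 : Nat.card G ≠ 0 := Nat.card_pos.ne'
  obtain ⟨P⟩ : Nonempty (Sylow p G) := inferInstance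
  -- residuals
  have hres : ∀ q : ℕ, q.Prime → q ≠ p → q ∣ Nat.card G → ¬ q ∣ Nat.card (pResidual q G) := by
    intro q hq hqp hqG
    haveI : Fact q.Prime := ⟨hq⟩
    apply CfsgLib.Resid19.thompson
    intro χ hχ
    have h1 : ¬ (χ : G → ℂ) 1 = 1 := by
      intro h2
      rw [irr_one_eq_charDegree χ.2] at h2
      exact hχ (by exact_mod_cast h2)
    refine (dvd_pow_self q ?_).trans (hdz χ h1 q hq hqp)
    exact (hq.factorization_pos_of_dvd hG0 hqG).ne'
  -- the Sylow subgroup is normal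
  set N : Subgroup G := ⨅ q : {q : ℕ // q.Prime ∧ q ≠ p ∧ q ∣ Nat.card G}, pResidual (q : ℕ) G with hNdef
  have hPN : (P : Subgroup G) ≤ N := by
    refine le_iInf fun q x hx => ?_
    apply Subgroup.subset_closure
    obtain ⟨k, hk⟩ := IsPGroup.iff_orderOf.1 P.2 ⟨x, hx⟩
    rw [Subgroup.orderOf_mk] at hk
    show Nat.Coprime (orderOf x) q
    rw [hk]
    exact Nat.Coprime.pow_left k ((Nat.coprime_primes hp q.2.1).2 (Ne.symm q.2.2.1))
  have hNp : IsPGroup p N := by
    rw [IsPGroup.iff_card]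
    refine ⟨_, Nat.eq_prime_pow_of_unique_prime_dvd Nat.card_pos.ne' ?_⟩
    intro q hq hqN
    by_contra hne
    have hqG : q ∣ Nat.card G := hqN.trans (Subgroup.card_subgroup_dvd_card N)
    apply hres q hq hne hqG
    exact hqN.trans (Subgroup.card_dvd_of_le (iInf_le _ (⟨q, hq, hne, hqG⟩ : {q : ℕ // q.Prime ∧ q ≠ p ∧ q ∣ Nat.card G})))
  have hNP : N = (P : Subgroup G) := P.is_maximal' hNp hPN
  haveI hPn : (P : Subgroup G).Normal := by
    rw [← hNP]
    apply Subgroup.normal_iInf_normal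
    intro q
    haveI : Fact (q : ℕ).Prime := ⟨q.2.1⟩
    exact CfsgLib.TransFus.pResidual_normal (q : ℕ)
  -- vanishing off `P`
  have hvan : ∀ g : G, g ∉ (P : Subgroup G) → ∀ χ : IrrCharacter G, ¬ (χ : G → ℂ) 1 = 1 → (χ : G → ℂ) g = 0 := by
    intro g hg χ hχ
    obtain ⟨q, hq, hqp, hqg⟩ := mem_of_order P hPn hg
    exact CfsgLib.FSDef0.vanish hq (hdz χ hχ q hq hqp) hqg
  -- the quotient is abelian
  have hcardP := P.card_eq_multiplicity
  have hidx : (P : Subgroup G).index = Nat.card G / p ^ (Nat.card G).factorization p := by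
    rw [← hcardP]
    exact Nat.eq_div_of_mul_eq_right Nat.card_pos.ne' (Subgroup.card_mul_index _)
  haveI : Fintype (G ⧸ (P : Subgroup G)) := Fintype.ofFinite _
  have hquot : ∀ a b : G ⧸ (P : Subgroup G), a * b = b * a := by
    apply comm_of_lin
    intro χ'
    by_contra hne
    have hsurj := QuotientGroup.mk'_surjective (P : Subgroup G)
    have h1 : IsIrrCharacter G ((χ' : G ⧸ (P : Subgroup G) → ℂ) ∘ (QuotientGroup.mk' (P : Subgroup G))) :=
      (irr_comp_surj_iff _ hsurj (irr_isCharacter χ'.2)).2 χ'.2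
    have h2 : (⟨_, h1⟩ : IrrCharacter G).1 1 = (χ' : G ⧸ (P : Subgroup G) → ℂ) 1 := by
      show (χ' : G ⧸ (P : Subgroup G) → ℂ) (QuotientGroup.mk' (P : Subgroup G) 1) = _
      rw [map_one]
    have h3 := dvd_of_all hG0 (irr_charDegree_pos h1).ne' hp (hdz ⟨_, h1⟩ (by
      intro h; exact hne (h2.symm.trans h)))
    have h4 : charDegree ((χ' : G ⧸ (P : Subgroup G) → ℂ) ∘ (QuotientGroup.mk' (P : Subgroup G))) =
        charDegree (χ' : G ⧸ (P : Subgroup G) → ℂ) := by
      have h5 := irr_one_eq_charDegree h1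
      have h6 := irr_one_eq_charDegree χ'.2
      have h7 : ((charDegree ((χ' : G ⧸ (P : Subgroup G) → ℂ) ∘ (QuotientGroup.mk' (P : Subgroup G))) : ℕ) : ℂ) =
          (charDegree (χ' : G ⧸ (P : Subgroup G) → ℂ) : ℕ) := by
        rw [← h5, ← h6]; exact h2
      exact_mod_cast h7
    have h5 := deg_sq_lt χ' hne
    have h6 : Nat.card (G ⧸ (P : Subgroup G)) = Nat.card G / p ^ (Nat.card G).factorization p := by
      rw [← hidx]; rfl
    have h7 : Nat.card (G ⧸ (P : Subgroup G)) ∣ charDegree (χ' : G ⧸ (P : Subgroup G) → ℂ) := by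
      rw [h6, ← h4]; exact h3
    have h8 := Nat.le_of_dvd (irr_charDegree_pos χ'.2) h7
    nlinarith [irr_charDegree_pos χ'.2]
  -- the complement
  have hcop : Nat.Coprime (Nat.card (P : Subgroup G)) (P : Subgroup G).index := by
    rw [hcardP]
    exact Nat.Coprime.pow_left _ ((Nat.Prime.coprime_iff_not_dvd hp).2 P.not_dvd_index)
  obtain ⟨A, hA⟩ := Subgroup.exists_right_complement'_of_coprime hcop
  have hPA : (P : Subgroup G) ⊓ A = ⊥ := hA.disjoint.eq_bot
  have hsup : A ⊔ (P : Subgroup G) = ⊤ := by rw [sup_comm]; exact hA.sup_eq_top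
  have hcardA : Nat.card A = (P : Subgroup G).index := hA.symm.index_eq_card.symm
  have hAcop : (Nat.card A).Coprime p := by
    rw [hcardA]; exact Nat.coprime_comm.1 ((Nat.Prime.coprime_iff_not_dvd hp).2 P.not_dvd_index)
  have hAcomm : ∀ a ∈ A, ∀ b ∈ A, a * b = b * a := by
    intro a ha b hb
    have h1 := hquot (QuotientGroup.mk' (P : Subgroup G) a) (QuotientGroup.mk' (P : Subgroup G) b)
    rw [← map_mul, ← map_mul] at h1
    have h2 : (a * b)⁻¹ * (b * a) ∈ (P : Subgroup G) := QuotientGroup.eq.1 h1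
    have h3 : (a * b)⁻¹ * (b * a) ∈ (P : Subgroup G) ⊓ A :=
      ⟨h2, A.mul_mem (A.inv_mem (A.mul_mem ha hb)) (A.mul_mem hb ha)⟩
    rw [hPA, Subgroup.mem_bot] at h3
    exact inv_mul_eq_one.1 h3
  have hA1 : A ≠ ⊥ := by
    rintro rfl
    apply hnp
    refine ⟨p, hp, ?_⟩
    rw [bot_sup_eq] at hsup
    have h1 := P.2
    rw [hsup] at h1
    exact h1.of_equiv Subgroup.topEquiv
  set C := (P : Subgroup G) ⊓ Subgroup.centralizer (A : Set G) with hC
  set D := ⁅A, (P : Subgroup G)⁆ with hD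
  have hAN : A ≤ Subgroup.normalizer ((P : Subgroup G) : Set G) := by
    rw [Subgroup.normalizer_eq_top_iff.2 hPn]; exact le_top
  have hcopAP : (Nat.card A).Coprime (Nat.card (P : Subgroup G)) := by rw [hcardA]; exact hcop.symm
  have hsolvP : Group.IsSolvable (P : Subgroup G) := by
    haveI := P.2.isNilpotent
    infer_instance
  have hCD : C ⊔ D = (P : Subgroup G) := by
    have h1 := CfsgLib.Coprime.commutator_sup_centralizer hAN hcopAP (Or.inr hsolvP)
    rw [sup_comm, Subgroup.commutator_comm] at h1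
    exact h1
  have hDP : D ≤ (P : Subgroup G) := by rw [← hCD]; exact le_sup_right
  have hDn : D.Normal := by
    rw [← Subgroup.normalizer_eq_top_iff, eq_top_iff, ← hsup]
    apply sup_le
    · exact Subgroup.normalizer_commutator_ge_left A _
    · exact Subgroup.normalizer_commutator_ge_right A _
  have hD' : D ≤ commutator G := Subgroup.commutator_mono le_top le_top
  -- the counting
  set W := D ⊔ ⁅(P : Subgroup G), (P : Subgroup G)⁆ with hW
  have hPPn : (⁅(P : Subgroup G), (P : Subgroup G)⁆).Normal := inferInstance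
  haveI hWn : W.Normal := by haveI := hDn; infer_instance
  have hWG : W ≤ commutator G := sup_le hD' (Subgroup.commutator_mono le_top le_top)
  have hWP : W ≤ (P : Subgroup G) := sup_le hDP (Subgroup.commutator_le_right _ _)
  have hWidx : W.index = W.relIndex C * Nat.card A := by
    have h1 : C ⊔ W = (P : Subgroup G) := by
      apply le_antisymm (sup_le inf_le_left hWP)
      calc (P : Subgroup G) = C ⊔ D := hCD.symm
        _ ≤ C ⊔ W := sup_le_sup_left le_sup_left _
    calc W.index = W.relIndex (P : Subgroup G) * (P : Subgroup G).index := (Subgroup.relIndex_mul_index hWP).symm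
      _ = W.relIndex (C ⊔ W) * Nat.card A := by rw [h1, hcardA]
      _ = W.relIndex C * Nat.card A := by rw [Subgroup.relIndex_sup_right]
  have hGW : (commutator G).index ≤ W.index :=
    Nat.le_of_dvd (Nat.pos_of_ne_zero Subgroup.index_ne_zero_of_finite) (Subgroup.index_dvd_of_le hWG)
  have hcent : ∀ a ∈ A, a ≠ 1 → Nat.card (Subgroup.centralizer ({a} : Set G)) = (commutator G).index := by
    intro a ha ha1
    apply card_cent_eq
    intro χ hχ
    apply hvan a _ χ hχ
    intro haP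
    have : a ∈ (P : Subgroup G) ⊓ A := ⟨haP, ha⟩
    rw [hPA] at this
    exact ha1 this
  obtain ⟨hCDbot, hCcomm, hfix⟩ := counting (W := W) hPA hC hAcomm hA1 hDP hWn le_sup_left le_sup_right hGW hWidx hcent
  -- cyclicity
  have hD1 : D ≠ ⊥ := by
    intro hD0
    apply hnc
    rw [hD0, sup_bot_eq] at hCD
    -- everything commutes
    have h1 : ∀ x ∈ (P : Subgroup G), ∀ y ∈ (P : Subgroup G), x * y = y * x := by
      rw [← hCD]; exact hCcomm
    have h2 : ∀ x ∈ A, ∀ y ∈ (P : Subgroup G), x * y = y * x := by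
      intro x hx y hy
      rw [← hCD] at hy
      exact Subgroup.mem_centralizer_iff.1 hy.2 x hx
    have h3 : ∀ g : G, ∃ x ∈ A, ∃ y ∈ (P : Subgroup G), x * y = g := by
      intro g
      have : g ∈ A ⊔ (P : Subgroup G) := by rw [hsup]; exact Subgroup.mem_top _
      exact Subgroup.mem_sup_of_normal_right.1 this
    intro g g'
    obtain ⟨x, hx, y, hy, rfl⟩ := h3 g
    obtain ⟨x', hx', y', hy', rfl⟩ := h3 g'
    calc x * y * (x' * y') = x * (y * x') * y' := by group
      _ = x * (x' * y) * y' := by rw [h2 x' hx' y hy]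
      _ = (x * x') * (y * y') := by group
      _ = (x' * x) * (y' * y) := by rw [hAcomm x hx x' hx', h1 y hy y' hy']
      _ = x' * (x * y') * y := by group
      _ = x' * (y' * x) * y := by rw [h2 x hx y' hy']
      _ = x' * y' * (x * y) := by group
  have hcyc : IsCyclic A := by
    have hfpf : CfsgLib.FPF1.FPF A D := by
      intro a ha ha1
      rw [eq_bot_iff]
      intro d hd
      exact Subgroup.mem_bot.2 (hfix a ha ha1 d hd.1 (Subgroup.mem_centralizer_singleton_iff.1 hd.2).symm)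
    refine hfpf.isCyclic_of_comm ?_ hD1 ⟨⟨fun x y => Subtype.ext (hAcomm x x.2 y y.2)⟩⟩
    rw [Subgroup.normalizer_eq_top_iff.2 hDn]; exact le_top
  exact ⟨p, ⟨hp⟩, P, A, hPn, hcyc, hA1, hAcop, hsup,
    ⟨⟨fun x y => Subtype.ext (hCcomm x x.2 y y.2)⟩⟩, hDn, hCD, hCDbot, hfix⟩

end CfsgLib.Mco
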