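import Mathlib
import Cfsg.Agent.LibMco3

/-!
# Multiplicativity on coprime elements, IV: the converse (helper17)
-/

set_option autoImplicit false
set_option linter.unusedSectionVars false
set_option linter.style.haveILetI false
set_option linter.unusedVariables false

namespace CfsgLib.Mco

open Cfsg CfsgLib.CharBasic CfsgLib.CharNorm CfsgLib.CharMore
open scoped ComplexConjugate commutatorElement

universe u

variable {G : Type u} [Group G] [Fintype G]

theorem comm_le {A C D : Subgroup G} (hDn : D.Normal) (hsup : A ⊔ (C ⊔ D) = ⊤)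
    (hA : ∀ a ∈ A, ∀ b ∈ A, a * b = b * a) (hC : ∀ a ∈ C, ∀ b ∈ C, a * b = b * a)
    (hAC : ∀ a ∈ A, ∀ c ∈ C, a * c = c * a) : commutator G ≤ D := by
  have key : ∀ x : G, (∀ a ∈ A, x * a = a * x) → (∀ c ∈ C, x * c = c * x) →
      ∀ g : G, (QuotientGroup.mk' D x) * (QuotientGroup.mk' D g) = (QuotientGroup.mk' D g) * (QuotientGroup.mk' D x) := by
    intro x h1 h2 g
    have h3 : (⊤ : Subgroup G) ≤ (Subgroup.centralizer ({QuotientGroup.mk' D x} : Set (G ⧸ D))).comap (QuotientGroup.mk' D) := by
      rw [← hsup]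
      refine sup_le ?_ (sup_le ?_ ?_)
      · intro a ha
        rw [Subgroup.mem_comap, Subgroup.mem_centralizer_singleton_iff, ← map_mul, ← map_mul, h1 a ha]
      · intro a ha
        rw [Subgroup.mem_comap, Subgroup.mem_centralizer_singleton_iff, ← map_mul, ← map_mul, h2 a ha]
      · intro d hd
        have : QuotientGroup.mk' D d = 1 := (QuotientGroup.eq_one_iff d).2 hd
        rw [Subgroup.mem_comap, Subgroup.mem_centralizer_singleton_iff, this, one_mul, mul_one]
    have h4 := h3 (Subgroup.mem_top g)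
    rw [Subgroup.mem_comap, Subgroup.mem_centralizer_singleton_iff] at h4
    exact h4.symm
  have h5 : (⊤ : Subgroup G) ≤ (Subgroup.center (G ⧸ D)).comap (QuotientGroup.mk' D) := by
    rw [← hsup]
    have h6 : ∀ x : G, (∀ a ∈ A, x * a = a * x) → (∀ c ∈ C, x * c = c * x) →
        x ∈ (Subgroup.center (G ⧸ D)).comap (QuotientGroup.mk' D) := by
      intro x h1 h2
      rw [Subgroup.mem_comap, Subgroup.mem_center_iff]
      intro q
      obtain ⟨g, rfl⟩ := QuotientGroup.mk'_surjective D q
      exact (key x h1 h2 g).symm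
    refine sup_le ?_ (sup_le ?_ ?_)
    · intro a ha
      exact h6 a (hA a ha) (hAC a ha)
    · intro c hc
      exact h6 c (fun a ha => (hAC a ha c hc).symm) (hC c hc)
    · intro d hd
      have : QuotientGroup.mk' D d = 1 := (QuotientGroup.eq_one_iff d).2 hd
      rw [Subgroup.mem_comap, this]; exact Subgroup.one_mem _
  rw [commutator_def, Subgroup.commutator_le]
  intro x _ y _
  have h7 := h5 (Subgroup.mem_top x)
  rw [Subgroup.mem_comap, Subgroup.mem_center_iff] at h7
  have h8 := h7 (QuotientGroup.mk' D y)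
  have h9 : QuotientGroup.mk' D ⁅x, y⁆ = 1 := by
    rw [commutatorElement_def, map_mul, map_mul, map_mul, map_inv, map_inv, ← h8]
    group
  exact (QuotientGroup.eq_one_iff _).1 h9

theorem rel_of_bot {A P : Subgroup G} (h : A ⊓ P = ⊥) : P.relIndex A = Nat.card A := by
  have h1 : P.subgroupOf A = ⊥ := by
    rw [eq_bot_iff]
    intro x hx
    have : (x : G) ∈ A ⊓ P := ⟨x.2, Subgroup.mem_subgroupOf.1 hx⟩
    rw [h, Subgroup.mem_bot] at this
    exact Subgroup.mem_bot.2 (Subtype.ext this)
  show (P.subgroupOf A).index = _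
  rw [h1, Subgroup.index_bot]

theorem cent_conj (a h : G) : Nat.card (Subgroup.centralizer ({h * a * h⁻¹} : Set G)) =
    Nat.card (Subgroup.centralizer ({a} : Set G)) := by
  have h1 : Subgroup.centralizer ({h * a * h⁻¹} : Set G) = (Subgroup.centralizer ({a} : Set G)).map (MulAut.conj h).toMonoidHom := by
    ext x
    rw [Subgroup.mem_centralizer_singleton_iff]
    constructor
    · intro hx
      refine ⟨h⁻¹ * x * h, ?_, ?_⟩
      · show h⁻¹ * x * h ∈ Subgroup.centralizer ({a} : Set G)
        rw [Subgroup.mem_centralizer_singleton_iff]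
        have : h⁻¹ * (x * (h * a * h⁻¹)) * h = h⁻¹ * ((h * a * h⁻¹) * x) * h := by rw [hx]
        calc h⁻¹ * x * h * a = h⁻¹ * (x * (h * a * h⁻¹)) * h := by group
          _ = h⁻¹ * ((h * a * h⁻¹) * x) * h := this
          _ = a * (h⁻¹ * x * h) := by group
      · show h * (h⁻¹ * x * h) * h⁻¹ = x
        group
    · rintro ⟨y, hy, rfl⟩
      have hy' : y * a = a * y := Subgroup.mem_centralizer_singleton_iff.1 hy
      show h * y * h⁻¹ * (h * a * h⁻¹) = (h * a * h⁻¹) * (h * y * h⁻¹)
      calc h * y * h⁻¹ * (h * a * h⁻¹) = h * (y * a) * h⁻¹ := by group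
        _ = h * (a * y) * h⁻¹ := by rw [hy']
        _ = _ := by group
  rw [h1]
  exact Subgroup.card_map_of_injective (MulAut.conj h).injective

theorem backward {p : ℕ} [hp : Fact p.Prime] (P : Sylow p G) {A C D : Subgroup G} (hPn : (P : Subgroup G).Normal)
    (hAcomm : ∀ a ∈ A, ∀ b ∈ A, a * b = b * a) (hAcop : (Nat.card A).Coprime p)
    (hsup : A ⊔ (P : Subgroup G) = ⊤) (hC : C = (P : Subgroup G) ⊓ Subgroup.centralizer (A : Set G))
    (hCcomm : ∀ a ∈ C, ∀ b ∈ C, a * b = b * a) (hDn : D.Normal) (hCD : C ⊔ D = (P : Subgroup G))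
    (hCDbot : C ⊓ D = ⊥) (hfix : ∀ a ∈ A, a ≠ 1 → ∀ d ∈ D, a * d = d * a → d = 1) : Mult G := by
  classical
  have hAC : ∀ a ∈ A, ∀ c ∈ C, a * c = c * a := by
    intro a ha c hc
    rw [hC] at hc
    exact Subgroup.mem_centralizer_iff.1 hc.2 a ha
  have hCP : C ≤ (P : Subgroup G) := by rw [hC]; exact inf_le_left
  have hDP : D ≤ (P : Subgroup G) := by rw [← hCD]; exact le_sup_right
  have hPp := P.card_eq_multiplicity
  have hAP : A ⊓ (P : Subgroup G) = ⊥ := by
    apply Subgroup.inf_eq_bot_of_coprime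
    rw [hPp]; exact Nat.Coprime.pow_right _ hAcop
  have hGD : commutator G ≤ D := comm_le hDn (by rw [hCD]; exact hsup) hAcomm hCcomm hAC
  have hPidx : (P : Subgroup G).index = Nat.card A := by
    have h1 : (P : Subgroup G).relIndex (A ⊔ (P : Subgroup G)) = (P : Subgroup G).relIndex A := Subgroup.relIndex_sup_right _ _
    rw [hsup, Subgroup.relIndex_top_right, rel_of_bot hAP] at h1
    exact h1
  have hDidx : D.index = Nat.card C * Nat.card A := by
    have h1 : D.relIndex (C ⊔ D) = D.relIndex C := Subgroup.relIndex_sup_right _ _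
    rw [rel_of_bot hCDbot, hCD] at h1
    rw [← Subgroup.relIndex_mul_index hDP, h1, hPidx]
  have hG'idx : Nat.card C * Nat.card A ≤ (commutator G).index := by
    rw [← hDidx]
    exact Nat.le_of_dvd (Nat.pos_of_ne_zero Subgroup.index_ne_zero_of_finite) (Subgroup.index_dvd_of_le hGD)
  -- centralizers of elements of `A`
  have hcA : ∀ a ∈ A, a ≠ 1 → Nat.card (Subgroup.centralizer ({a} : Set G)) ≤ Nat.card C * Nat.card A := by
    intro a ha ha1
    have h1 : (Subgroup.centralizer ({a} : Set G)) ⊓ (P : Subgroup G) ≤ C := by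
      rintro x ⟨hx1, hx2⟩
      have hx2' : x ∈ C ⊔ D := by rw [hCD]; exact hx2
      obtain ⟨c, hc, d, hd, rfl⟩ := Subgroup.mem_sup_of_normal_right.1 hx2'
      replace hx1 : c * d ∈ Subgroup.centralizer ({a} : Set G) := hx1
      rw [Subgroup.mem_centralizer_singleton_iff] at hx1
      have h2 : a * d = d * a := by
        have h3 : c * (d * a) = c * (a * d) := by
          calc c * (d * a) = c * d * a := by group
            _ = a * (c * d) := hx1
            _ = (a * c) * d := by group
            _ = (c * a) * d := by rw [hAC a ha c hc]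
            _ = c * (a * d) := by group
        exact (mul_left_cancel h3).symm
      rw [hfix a ha ha1 d hd h2, mul_one]
      exact hc
    have h2 := Subgroup.card_mul_index ((P : Subgroup G).subgroupOf (Subgroup.centralizer ({a} : Set G)))
    have h3 : ((P : Subgroup G).subgroupOf (Subgroup.centralizer ({a} : Set G))).index ≤ Nat.card A := by
      rw [← hPidx]
      exact Nat.le_of_dvd (Nat.pos_of_ne_zero Subgroup.index_ne_zero_of_finite)
        (Subgroup.relIndex_dvd_index_of_normal (P : Subgroup G) _)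
    have h4 : Nat.card ((P : Subgroup G).subgroupOf (Subgroup.centralizer ({a} : Set G))) ≤ Nat.card C := by
      apply Nat.card_le_card_of_injective (fun x : ((P : Subgroup G).subgroupOf (Subgroup.centralizer ({a} : Set G))) =>
        (⟨((x : Subgroup.centralizer ({a} : Set G)) : G), h1 ⟨x.1.2, Subgroup.mem_subgroupOf.1 x.2⟩⟩ : C))
      intro x y hxy
      have hxy' : ((x.1 : Subgroup.centralizer ({a} : Set G)) : G) = ((y.1 : Subgroup.centralizer ({a} : Set G)) : G) :=
        congrArg (fun z : C => (z : G)) hxy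
      exact Subtype.ext (Subtype.ext hxy')
    rw [← h2]
    exact Nat.mul_le_mul h4 h3
  have hcent : ∀ g : G, g ∉ (P : Subgroup G) → Nat.card (Subgroup.centralizer ({g} : Set G)) ≤ Nat.card C * Nat.card A := by
    intro g hg
    obtain ⟨q, hq, hqp, hqg⟩ := mem_of_order P hPn hg
    haveI : Fact q.Prime := ⟨hq⟩
    obtain ⟨k, hk⟩ := hqg
    have hk0 : k ≠ 0 := by
      rintro rfl
      rw [mul_zero] at hk
      exact (orderOf_pos g).ne' hk
    set y := g ^ k with hy
    have hyo : orderOf y = q := by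
      rw [hy, orderOf_pow, hk, Nat.gcd_eq_right (Dvd.intro_left q rfl)]
      exact Nat.mul_div_cancel _ (Nat.pos_of_ne_zero hk0)
    have hle : Subgroup.centralizer ({g} : Set G) ≤ Subgroup.centralizer ({y} : Set G) := by
      intro x hx
      rw [Subgroup.mem_centralizer_singleton_iff] at hx ⊢
      have : Commute x g := hx
      exact this.pow_right k
    -- a Sylow `q`-subgroup inside `A`
    obtain ⟨Q⟩ : Nonempty (Sylow q A) := inferInstance
    have hGcard : Nat.card A * Nat.card (P : Subgroup G) = Nat.card G := by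
      rw [← hPidx, mul_comm]; exact Subgroup.card_mul_index _
    have hfac : (Nat.card A).factorization q = (Nat.card G).factorization q := by
      rw [← hGcard, Nat.factorization_mul Nat.card_pos.ne' Nat.card_pos.ne', Finsupp.add_apply, hPp,
        hp.out.factorization_pow, Finsupp.single_eq_of_ne hqp, add_zero]
    have hQc : Nat.card ((Q : Subgroup A).map A.subtype) = q ^ (Nat.card G).factorization q := by
      rw [Subgroup.card_map_of_injective A.subtype_injective, Q.card_eq_multiplicity, hfac]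
    set S : Sylow q G := Sylow.ofCard _ hQc with hS
    have hyp : IsPGroup q (Subgroup.zpowers y) := IsPGroup.of_card (n := 1) (by rw [Nat.card_zpowers, hyo, pow_one])
    obtain ⟨T, hT⟩ := hyp.exists_le_sylow
    obtain ⟨h, hh⟩ := MulAction.exists_smul_eq G S T
    have hyT : y ∈ T := hT (Subgroup.mem_zpowers y)
    rw [← hh] at hyT
    have hyT' : h⁻¹ * y * h ∈ (S : Subgroup G) := by
      have h1 : y ∈ ((h • S : Sylow q G) : Subgroup G) := hyT
      rw [Sylow.coe_subgroup_smul, Subgroup.mem_pointwise_smul_iff_inv_smul_mem] at h1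
      simpa [MulAut.smul_def] using h1
    have hSA : (S : Subgroup G) ≤ A := by
      rw [hS, Sylow.coe_ofCard]
      exact Subgroup.map_subtype_le _
    have hyA := hSA hyT'
    have hne : h⁻¹ * y * h ≠ 1 := by
      intro h1
      have h2 : y = 1 := by
        calc y = h * (h⁻¹ * y * h) * h⁻¹ := by group
          _ = 1 := by rw [h1]; group
      rw [h2, orderOf_one] at hyo
      exact hq.one_lt.ne hyo
    have h1 := hcA _ hyA hne
    have h2 := cent_conj (h⁻¹ * y * h) h
    have h3 : h * (h⁻¹ * y * h) * h⁻¹ = y := by group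
    rw [h3] at h2
    rw [← h2] at h1
    exact (Nat.card_le_card_of_injective _ (Subgroup.inclusion_injective hle)).trans h1
  have hvan : ∀ g : G, g ∉ (P : Subgroup G) → ∀ χ : IrrCharacter G, ¬ (χ : G → ℂ) 1 = 1 → (χ : G → ℂ) g = 0 :=
    fun g hg χ hχ => nl_vanish ((hcent g hg).trans hG'idx) χ hχ
  -- conclusion
  rintro x y χ hx hy ⟨p₁, q₁, a, b, hp₁, hq₁, hne, hxo, hyo⟩
  by_cases hχ : (χ : G → ℂ) 1 = 1
  · exact linear_mul (irr_isCharacter χ.2) hχ x y
  have hord : ∀ z ∈ (P : Subgroup G), z ≠ 1 → ∀ r c : ℕ, r.Prime → orderOf z = r ^ c → r = p := by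
    intro z hz hz1 r c hr hzo
    obtain ⟨k, hk⟩ := IsPGroup.iff_orderOf.1 P.2 ⟨z, hz⟩
    rw [Subgroup.orderOf_mk, hzo] at hk
    have hc0 : c ≠ 0 := by
      rintro rfl
      rw [pow_zero] at hzo
      exact hz1 (orderOf_eq_one_iff.1 hzo)
    have h1 : r ∣ p ^ k := by rw [← hk]; exact dvd_pow_self r hc0
    exact (Nat.prime_dvd_prime_iff_eq hr hp.out).1 (hr.dvd_of_dvd_pow h1)
  have hxy : ¬ (x ∈ (P : Subgroup G) ∧ y ∈ (P : Subgroup G)) := by
    rintro ⟨h1, h2⟩
    exact hne ((hord x h1 hx _ _ hp₁ hxo).trans (hord y h2 hy _ _ hq₁ hyo).symm)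
  have hxyP : x * y ∉ (P : Subgroup G) := by
    intro h1
    apply hxy
    haveI := hPn
    have h2 : QuotientGroup.mk' (P : Subgroup G) x * QuotientGroup.mk' (P : Subgroup G) y = 1 := by
      rw [← map_mul]; exact (QuotientGroup.eq_one_iff _).2 h1
    have h3 : orderOf (QuotientGroup.mk' (P : Subgroup G) x) ∣ p₁ ^ a := by
      rw [← hxo]; exact orderOf_map_dvd _ _
    have h4 : orderOf (QuotientGroup.mk' (P : Subgroup G) x) ∣ q₁ ^ b := by
      rw [eq_inv_of_mul_eq_one_left h2, orderOf_inv, ← hyo]; exact orderOf_map_dvd _ _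
    have h5 : orderOf (QuotientGroup.mk' (P : Subgroup G) x) ∣ 1 := by
      have h6 : Nat.Coprime (p₁ ^ a) (q₁ ^ b) := Nat.Coprime.pow _ _ ((Nat.coprime_primes hp₁ hq₁).2 hne)
      rw [← h6.gcd_eq_one]
      exact Nat.dvd_gcd h3 h4
    have h7 : QuotientGroup.mk' (P : Subgroup G) x = 1 := orderOf_eq_one_iff.1 (Nat.dvd_one.1 h5)
    rw [h7, one_mul] at h2
    exact ⟨(QuotientGroup.eq_one_iff x).1 h7, (QuotientGroup.eq_one_iff y).1 h2⟩
  rw [hvan _ hxyP χ hχ]
  by_cases hxP : x ∈ (P : Subgroup G)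
  · have hyP : y ∉ (P : Subgroup G) := fun h => hxy ⟨hxP, h⟩
    rw [hvan y hyP χ hχ, mul_zero]
  · rw [hvan x hxP χ hχ, zero_mul]

end CfsgLib.Mco
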