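import Cfsg.Agent.EqBase
import Mathlib
import Cfsg.Agent.LibSolvFrat
import Cfsg.Agent.LibSolvBasic

set_option autoImplicit false
set_option linter.style.haveILetI false

/-!
Finite `p`-groups, `p` odd, with cyclic derived subgroup.
-/

namespace CfsgLib.MetacA

open scoped commutatorElement Pointwise

universe u

variable {G : Type u} [Group G]

/-- all subgroups of a cyclic derived subgroup are normal -/
theorem normal_of_le {N : Subgroup G} [N.Normal] (hN : IsCyclic N) {D : Subgroup G} (hD : D ≤ N) : D.Normal := by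
  constructor
  intro d hd g
  obtain ⟨⟨c, hc⟩, hgen⟩ := hN.exists_generator
  have h1 : g * c * g⁻¹ ∈ N := (inferInstance : N.Normal).conj_mem c hc g
  obtain ⟨m, hm⟩ := Subgroup.mem_zpowers_iff.1 (hgen ⟨_, h1⟩)
  obtain ⟨k, hk⟩ := Subgroup.mem_zpowers_iff.1 (hgen ⟨d, hD hd⟩)
  have hm' : c ^ m = g * c * g⁻¹ := congrArg Subtype.val hm
  have hk' : c ^ k = d := congrArg Subtype.val hk
  have : g * d * g⁻¹ = d ^ m := by
    rw [← hk', ← conj_zpow, ← hm', ← zpow_mul, ← zpow_mul, mul_comm]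
  rw [this]
  exact D.zpow_mem hd m

/-- in a `p`-group, elements act as a power congruent to `1` on a cyclic normal subgroup -/
theorem exists_conj_eq [Finite G] {p : ℕ} [hp : Fact p.Prime] (hG : IsPGroup p G) {N : Subgroup G} [N.Normal] (hN : IsCyclic N)
    (g : G) {c : G} (hc : c ∈ N) : ∃ w : ℤ, g * c * g⁻¹ = c ^ (1 + p * w) := by
  by_cases hc1 : c = 1
  · exact ⟨0, by rw [hc1]; simp⟩
  haveI : (Subgroup.zpowers c).Normal := normal_of_le hN (Subgroup.zpowers_le.2 hc)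
  obtain ⟨m, hm⟩ := Subgroup.mem_zpowers_iff.1 ((inferInstance : (Subgroup.zpowers c).Normal).conj_mem c (Subgroup.mem_zpowers c) g)
  have hpow : ∀ k : ℕ, g ^ k * c * (g ^ k)⁻¹ = c ^ (m ^ k) := by
    intro k
    induction k with
    | zero => simp
    | succ k ih =>
      have : g ^ (k + 1) * c * (g ^ (k + 1))⁻¹ = g * (g ^ k * c * (g ^ k)⁻¹) * g⁻¹ := by
        rw [pow_succ' g k]; group
      rw [this, ih, ← conj_zpow, ← hm, ← zpow_mul, pow_succ, mul_comm]
  obtain ⟨k, hk⟩ := hG g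
  have h1 := hpow (p ^ k)
  rw [hk] at h1
  have h2 : c ^ (m ^ p ^ k - 1) = 1 := by
    rw [zpow_sub, zpow_one, ← h1]; group
  have h3 : (orderOf c : ℤ) ∣ m ^ p ^ k - 1 := orderOf_dvd_iff_zpow_eq_one.2 h2
  have h4 : p ∣ orderOf c := by
    obtain ⟨j, hj⟩ := hG c
    obtain ⟨i, _, hi⟩ := (Nat.dvd_prime_pow hp.out).1 (orderOf_dvd_of_pow_eq_one hj)
    rcases i with _ | i
    · exact absurd (orderOf_eq_one_iff.1 hi) hc1
    · rw [hi, pow_succ]; exact dvd_mul_left _ _
  have h5 : (p : ℤ) ∣ m ^ p ^ k - 1 := dvd_trans (by exact_mod_cast h4) h3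
  have h6 : (p : ℤ) ∣ m - 1 := by
    rw [← ZMod.intCast_zmod_eq_zero_iff_dvd] at h5 ⊢
    push_cast at h5 ⊢
    rw [ZMod.pow_card_pow] at h5
    exact h5
  obtain ⟨w, hw⟩ := h6
  refine ⟨w, ?_⟩
  rw [← hw, ← hm]
  congr 1
  ring

theorem geom_sum_odd {p : ℕ} (hp : p.Prime) (hp2 : p ≠ 2) (w : ℤ) :
    ∃ z : ℤ, ∑ i ∈ Finset.range p, (1 + p * w) ^ i = p * (1 + p * z) := by
  have h1 : ∀ i : ℕ, ∃ t : ℤ, (1 + (p : ℤ) * w) ^ i = 1 + i * (p * w) + p ^ 2 * t := by
    intro i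
    induction i with
    | zero => exact ⟨0, by simp⟩
    | succ i ih =>
      obtain ⟨t, ht⟩ := ih
      refine ⟨i * w ^ 2 + t + p * w * t, ?_⟩
      rw [pow_succ, ht]
      push_cast
      ring
  choose t ht using h1
  have hodd : ∃ m : ℕ, p = 2 * m + 1 := by
    rcases hp.eq_two_or_odd' with h | h
    · exact absurd h hp2
    · exact h
  obtain ⟨m, hm⟩ := hodd
  have hsum : ∑ i ∈ Finset.range p, (i : ℤ) = p * m := by
    have h2 := Finset.sum_range_id_mul_two p
    have h3 : (∑ i ∈ Finset.range p, i) = p * m := by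
      have h4 : (∑ i ∈ Finset.range p, i) * 2 = (p * m) * 2 := by
        rw [h2, hm]
        have : 2 * m + 1 - 1 = m * 2 := by omega
        rw [this]; ring
      exact Nat.eq_of_mul_eq_mul_right (by norm_num) h4
    have h5 := congrArg (Nat.cast : ℕ → ℤ) h3
    push_cast at h5
    exact h5
  refine ⟨m * w + ∑ i ∈ Finset.range p, t i, ?_⟩
  rw [Finset.sum_congr rfl (fun i _ => ht i), Finset.sum_add_distrib, Finset.sum_add_distrib, ← Finset.mul_sum, ← Finset.sum_mul,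
    hsum]
  simp only [Finset.sum_const, Finset.card_range, nsmul_eq_mul, mul_one]
  ring

/-- powers of commutators when conjugation acts as a power -/
theorem commutator_pow_left {x y : G} {u : ℤ} (h : x * ⁅x, y⁆ * x⁻¹ = ⁅x, y⁆ ^ u) (k : ℕ) :
    ⁅x ^ k, y⁆ = ⁅x, y⁆ ^ (∑ i ∈ Finset.range k, u ^ i) := by
  induction k with
  | zero => simp
  | succ k ih =>
    have h1 : ⁅x ^ (k + 1), y⁆ = (x * ⁅x ^ k, y⁆ * x⁻¹) * ⁅x, y⁆ := by
      rw [commutatorElement_def, commutatorElement_def, commutatorElement_def, pow_succ' x k]; group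
    rw [h1, ih, ← conj_zpow, h, ← zpow_mul, ← zpow_add_one, Finset.sum_range_succ', pow_zero]
    congr 1
    rw [Finset.mul_sum]
    congr 1
    apply Finset.sum_congr rfl
    intro i _
    rw [pow_succ]; ring

theorem zpowers_zpow_eq {p : ℕ} (hp : p.Prime) {c : G} (hc : ∃ k : ℕ, c ^ p ^ k = 1) (z : ℤ) :
    Subgroup.zpowers (c ^ (1 + p * z)) = Subgroup.zpowers c := by
  obtain ⟨k, hk⟩ := hc
  apply le_antisymm
  · rw [Subgroup.zpowers_le]
    exact Subgroup.zpow_mem _ (Subgroup.mem_zpowers c) _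
  · rw [Subgroup.zpowers_le]
    have hcop : IsCoprime (1 + (p : ℤ) * z) ((p : ℤ) ^ k) := by
      apply IsCoprime.pow_right
      exact ⟨1, -z, by ring⟩
    obtain ⟨a, b, hab⟩ := hcop
    have : c = (c ^ (1 + (p : ℤ) * z)) ^ a := by
      rw [← zpow_mul]
      have h1 : (1 + (p : ℤ) * z) * a = 1 - b * p ^ k := by linarith
      rw [h1, zpow_sub, zpow_one, mul_comm b, zpow_mul]
      have h2 : c ^ ((p : ℤ) ^ k) = 1 := by
        rw [← hk, ← zpow_natCast]; push_cast; rfl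
      rw [h2, one_zpow, inv_one, mul_one]
    exact Subgroup.mem_zpowers_iff.2 ⟨a, this.symm⟩

/-- a `p`-group, `p` odd, with cyclic derived subgroup -/
structure CycDer (p : ℕ) (G : Type u) [Group G] : Prop where
  hp : p.Prime
  hp2 : p ≠ 2
  pgroup : IsPGroup p G
  cyc : IsCyclic (commutator G)

variable [Finite G] {p : ℕ}

theorem CycDer.comm_mem (_h : CycDer p G) (x y : G) : ⁅x, y⁆ ∈ commutator G :=
  Subgroup.commutator_mem_commutator (Subgroup.mem_top x) (Subgroup.mem_top y)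

/-- Lemma B -/
theorem CycDer.zpowers_pow_left (h : CycDer p G) (x y : G) :
    Subgroup.zpowers ⁅x ^ p, y⁆ = Subgroup.zpowers (⁅x, y⁆ ^ p) := by
  haveI : Fact p.Prime := ⟨h.hp⟩
  obtain ⟨w, hw⟩ := exists_conj_eq h.pgroup h.cyc x (h.comm_mem x y)
  rw [commutator_pow_left hw]
  obtain ⟨z, hz⟩ := geom_sum_odd h.hp h.hp2 w
  rw [hz, zpow_mul, zpow_natCast]
  exact zpowers_zpow_eq h.hp (h.pgroup _) z

omit [Finite G] in
theorem zpowers_pow_of_eq {a b : G} (h : Subgroup.zpowers a = Subgroup.zpowers b) (n : ℕ) :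
    Subgroup.zpowers (a ^ n) = Subgroup.zpowers (b ^ n) := by
  have key : ∀ {a b : G}, Subgroup.zpowers a ≤ Subgroup.zpowers b → Subgroup.zpowers (a ^ n) ≤ Subgroup.zpowers (b ^ n) := by
    intro a b hab
    rw [Subgroup.zpowers_le] at hab ⊢
    obtain ⟨k, hk⟩ := Subgroup.mem_zpowers_iff.1 hab
    rw [← hk]
    refine Subgroup.mem_zpowers_iff.2 ⟨k, ?_⟩
    rw [← zpow_natCast, ← zpow_natCast, ← zpow_mul, ← zpow_mul, mul_comm]
  exact le_antisymm (key h.le) (key h.ge)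

theorem CycDer.zpowers_pow_pow_left (h : CycDer p G) (x y : G) (k : ℕ) :
    Subgroup.zpowers ⁅x ^ p ^ k, y⁆ = Subgroup.zpowers (⁅x, y⁆ ^ p ^ k) := by
  induction k with
  | zero => simp
  | succ k ih =>
    rw [pow_succ, pow_mul, h.zpowers_pow_left, pow_mul]
    exact zpowers_pow_of_eq ih p

omit [Finite G] in
theorem eq_one_iff_of_zpowers_eq {a b : G} (h : Subgroup.zpowers a = Subgroup.zpowers b) : a = 1 ↔ b = 1 := by
  rw [← Subgroup.zpowers_eq_bot, h, Subgroup.zpowers_eq_bot]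

/-- `⁅x^(p^k), y⁆ = 1` iff `⁅x,y⁆^(p^k) = 1` -/
theorem CycDer.comm_pow_eq_one_iff (h : CycDer p G) (x y : G) (k : ℕ) : ⁅x ^ p ^ k, y⁆ = 1 ↔ ⁅x, y⁆ ^ p ^ k = 1 :=
  eq_one_iff_of_zpowers_eq (h.zpowers_pow_pow_left x y k)

omit [Finite G] in
theorem comm_swap_pow (x y : G) (k : ℕ) : ⁅y, x⁆ ^ k = 1 ↔ ⁅x, y⁆ ^ k = 1 := by
  rw [← commutatorElement_inv x y, inv_pow, inv_eq_one]

theorem CycDer.comm_pow_right_eq_one_iff (h : CycDer p G) (x y : G) (k : ℕ) : ⁅x, y ^ p ^ k⁆ = 1 ↔ ⁅x, y⁆ ^ p ^ k = 1 := by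
  rw [← commutatorElement_inv, inv_eq_one, h.comm_pow_eq_one_iff, comm_swap_pow]

/-- number of conjugates versus orders of commutators, upper bound -/
theorem index_centralizer_le {g : G} {D : Subgroup G} (h : ∀ x : G, ⁅g, x⁆ ∈ D) :
    (Subgroup.centralizer ({g} : Set G)).index ≤ Nat.card D := by
  let f : G ⧸ (Subgroup.centralizer ({g} : Set G)) → D := fun q => ⟨⁅g, q.out⁆, h _⟩
  have hf : Function.Injective f := by
    intro q q' hq
    have h1 : ⁅g, q.out⁆ = ⁅g, q'.out⁆ := congrArg Subtype.val hq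
    rw [← Quotient.out_eq' q, ← Quotient.out_eq' q', Quotient.eq'', QuotientGroup.leftRel_apply,
      Subgroup.mem_centralizer_singleton_iff]
    rw [commutatorElement_def, commutatorElement_def] at h1
    have h2 : q.out * g⁻¹ * (q.out)⁻¹ = q'.out * g⁻¹ * (q'.out)⁻¹ := by
      calc q.out * g⁻¹ * (q.out)⁻¹ = g⁻¹ * (g * q.out * g⁻¹ * (q.out)⁻¹) := by group
        _ = g⁻¹ * (g * q'.out * g⁻¹ * (q'.out)⁻¹) := by rw [h1]
        _ = _ := by group
    have h3 : q.out * g * (q.out)⁻¹ = q'.out * g * (q'.out)⁻¹ := by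
      have := congrArg Inv.inv h2
      simpa [mul_assoc] using this
    calc (q.out)⁻¹ * q'.out * g = (q.out)⁻¹ * (q'.out * g * (q'.out)⁻¹) * q'.out := by group
      _ = (q.out)⁻¹ * (q.out * g * (q.out)⁻¹) * q'.out := by rw [h3]
      _ = g * ((q.out)⁻¹ * q'.out) := by group
  exact Nat.card_le_card_of_injective f hf

/-- the index of the centraliser of `g` is a power of `p` -/
theorem index_eq_pow [hp : Fact p.Prime] (hG : IsPGroup p G) (H : Subgroup G) : ∃ k, H.index = p ^ k := by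
  obtain ⟨n, hn⟩ := IsPGroup.iff_card.1 hG
  have h1 : H.index ∣ p ^ n := by rw [← hn]; exact H.index_dvd_card
  obtain ⟨k, _, hk⟩ := (Nat.dvd_prime_pow hp.out).1 h1
  exact ⟨k, hk⟩

/-- the centraliser of `g` in `⟨x⟩` has index at least the order of `⁅g,x⁆` -/
theorem CycDer.orderOf_le_relIndex (h : CycDer p G) (g x : G) :
    orderOf ⁅g, x⁆ ≤ (Subgroup.centralizer ({g} : Set G)).relIndex (Subgroup.zpowers x) := by
  haveI : Fact p.Prime := ⟨h.hp⟩
  obtain ⟨N, hN⟩ := IsPGroup.iff_card.1 h.pgroup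
  have h1 : (Subgroup.centralizer ({g} : Set G)).relIndex (Subgroup.zpowers x) ∣ p ^ N := by
    rw [← hN]
    exact (Subgroup.relIndex_dvd_card _ _).trans (Subgroup.card_subgroup_dvd_card _)
  obtain ⟨k, _, hk⟩ := (Nat.dvd_prime_pow h.hp).1 h1
  have h2 : x ^ p ^ k ∈ Subgroup.centralizer ({g} : Set G) := by
    rw [← hk]
    haveI : ((Subgroup.centralizer ({g} : Set G)).subgroupOf (Subgroup.zpowers x)).Normal := inferInstance
    have := Subgroup.pow_index_mem ((Subgroup.centralizer ({g} : Set G)).subgroupOf (Subgroup.zpowers x)) (⟨x, Subgroup.mem_zpowers x⟩ : Subgroup.zpowers x)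
    rw [Subgroup.mem_subgroupOf] at this
    exact this
  rw [hk]
  apply orderOf_le_of_pow_eq_one (pow_pos h.hp.pos k)
  rw [← h.comm_pow_right_eq_one_iff, commutatorElement_eq_one_iff_mul_comm]
  exact (Subgroup.mem_centralizer_singleton_iff.1 h2).symm

theorem relIndex_le_index' (H K : Subgroup G) : H.relIndex K ≤ H.index := by
  rw [← Subgroup.relIndex_top_right]
  exact Subgroup.relIndex_le_of_le_right le_top (by rw [Subgroup.relIndex_top_right]; exact Subgroup.index_ne_zero_of_finite)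

theorem CycDer.orderOf_le_index (h : CycDer p G) (g x : G) :
    orderOf ⁅g, x⁆ ≤ (Subgroup.centralizer ({g} : Set G)).index :=
  (h.orderOf_le_relIndex g x).trans (relIndex_le_index' _ _)

/-- the elements of exponent `k` in a cyclic subgroup -/
theorem exists_torsion {N : Subgroup G} (hN : IsCyclic N) {k : ℕ} (hk : 0 < k) :
    ∃ T : Subgroup G, (∀ x, x ∈ T ↔ x ∈ N ∧ x ^ k = 1) ∧ Nat.card T ≤ k := by
  classical
  haveI := hN
  have hcomm : ∀ x ∈ N, ∀ y ∈ N, Commute x y := by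
    intro x hx y hy
    letI : CommGroup N := IsCyclic.commGroup
    exact congrArg Subtype.val (mul_comm (⟨x, hx⟩ : N) ⟨y, hy⟩)
  let T : Subgroup G :=
    { carrier := {x | x ∈ N ∧ x ^ k = 1}
      mul_mem' := by
        rintro x y ⟨hx, hx1⟩ ⟨hy, hy1⟩
        refine ⟨mul_mem hx hy, ?_⟩
        rw [(hcomm x hx y hy).mul_pow, hx1, hy1, one_mul]
      one_mem' := ⟨one_mem _, one_pow _⟩
      inv_mem' := by
        rintro x ⟨hx, hx1⟩
        exact ⟨inv_mem hx, by rw [inv_pow, hx1, inv_one]⟩ }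
  refine ⟨T, fun x => Iff.rfl, ?_⟩
  letI : Fintype N := Fintype.ofFinite N
  have h1 := IsCyclic.card_pow_eq_one_le (α := N) hk
  refine le_trans ?_ h1
  let f : T → {a : N // a ∈ Finset.univ.filter (fun a : N => a ^ k = 1)} := fun x =>
    ⟨⟨x, x.2.1⟩, Finset.mem_filter.2 ⟨Finset.mem_univ _, Subtype.ext x.2.2⟩⟩
  have hf : Function.Injective f := by
    intro x y hxy
    have h2 : (⟨(x : G), x.2.1⟩ : N) = ⟨y, y.2.1⟩ := congrArg Subtype.val hxy
    exact Subtype.ext (congrArg (fun z : N => (z : G)) h2)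
  have h3 := Nat.card_le_card_of_injective f hf
  rwa [Nat.card_eq_fintype_card (α := {a : N // a ∈ Finset.univ.filter (fun a : N => a ^ k = 1)}), Fintype.card_coe] at h3

/-- class sizes in terms of orders of commutators -/
theorem CycDer.index_le_iff (h : CycDer p G) (g : G) (s : ℕ) :
    (Subgroup.centralizer ({g} : Set G)).index ≤ p ^ s ↔ ∀ x : G, ⁅g, x⁆ ^ p ^ s = 1 := by
  haveI : Fact p.Prime := ⟨h.hp⟩
  haveI := h.cyc
  constructor
  · intro hle x
    have h1 := (h.orderOf_le_index g x).trans hle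
    obtain ⟨j, hj⟩ := h.pgroup ⁅g, x⁆
    obtain ⟨i, _, hi⟩ := (Nat.dvd_prime_pow h.hp).1 (orderOf_dvd_of_pow_eq_one hj)
    rw [hi] at h1
    have h2 : i ≤ s := (Nat.pow_le_pow_iff_right h.hp.one_lt).1 h1
    rw [← orderOf_dvd_iff_pow_eq_one, hi]
    exact Nat.pow_dvd_pow p h2
  · intro hx
    obtain ⟨T, hT, hTc⟩ := exists_torsion h.cyc (pow_pos h.hp.pos s)
    exact (index_centralizer_le (fun x => (hT _).2 ⟨h.comm_mem g x, hx x⟩)).trans hTc

end CfsgLib.MetacA
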