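import Cfsg.Agent.EqBase
import Mathlib
import Cfsg.Agent.LibMetacA

set_option autoImplicit false
set_option linter.style.haveILetI false

/-!
Two-generated finite `p`-groups, `p` odd, with cyclic derived subgroup.
-/

namespace CfsgLib.MetacB

open CfsgLib.MetacA CfsgLib.SolvBasic
open scoped commutatorElement Pointwise

universe u

variable {G : Type u} [Group G] [Finite G] {p : ℕ}

theorem commutator_eq_zpowers (h : CycDer p G) {a b : G} (hab : Subgroup.closure {a, b} = ⊤) :
    commutator G = Subgroup.zpowers ⁅a, b⁆ := by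
  have hle : Subgroup.zpowers ⁅a, b⁆ ≤ commutator G := Subgroup.zpowers_le.2 (h.comm_mem a b)
  haveI : (Subgroup.zpowers ⁅a, b⁆).Normal := normal_of_le h.cyc hle
  apply le_antisymm _ hle
  -- the quotient is commutative
  have hcomm : ∀ x y : G ⧸ Subgroup.zpowers ⁅a, b⁆, x * y = y * x := by
    have h1 : Subgroup.closure {(QuotientGroup.mk' (Subgroup.zpowers ⁅a, b⁆)) a, (QuotientGroup.mk' (Subgroup.zpowers ⁅a, b⁆)) b} = ⊤ := by
      have := congrArg (Subgroup.map (QuotientGroup.mk' (Subgroup.zpowers ⁅a, b⁆))) hab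
      rw [MonoidHom.map_closure, Subgroup.map_top_of_surjective _ (QuotientGroup.mk'_surjective _), Set.image_pair] at this
      exact this
    have hc : (QuotientGroup.mk' (Subgroup.zpowers ⁅a, b⁆)) a * (QuotientGroup.mk' (Subgroup.zpowers ⁅a, b⁆)) b =
        (QuotientGroup.mk' (Subgroup.zpowers ⁅a, b⁆)) b * (QuotientGroup.mk' (Subgroup.zpowers ⁅a, b⁆)) a := by
      rw [← commutatorElement_eq_one_iff_mul_comm, ← map_commutatorElement, ← MonoidHom.mem_ker, QuotientGroup.ker_mk']
      exact Subgroup.mem_zpowers _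
    obtain ⟨a', ha'⟩ : ∃ a', a' = (QuotientGroup.mk' (Subgroup.zpowers ⁅a, b⁆)) a := ⟨_, rfl⟩
    obtain ⟨b', hb'⟩ : ∃ b', b' = (QuotientGroup.mk' (Subgroup.zpowers ⁅a, b⁆)) b := ⟨_, rfl⟩
    rw [← ha', ← hb'] at h1 hc
    have hcl : Subgroup.closure {a', b'} ≤ Subgroup.centralizer (({a', b'} : Set _)) := by
      rw [Subgroup.closure_le]
      intro x hx
      rw [SetLike.mem_coe, Subgroup.mem_centralizer_iff]
      intro y hy
      rcases hx with rfl | rfl <;> rcases hy with rfl | rfl
      · rfl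
      · exact hc.symm
      · exact hc
      · rfl
    have hcl2 : Subgroup.closure {a', b'} ≤ Subgroup.centralizer ((Subgroup.closure {a', b'} : Subgroup _) : Set _) := by
      rw [← Subgroup.le_centralizer_iff, Subgroup.closure_le] 
      intro x hx
      rw [SetLike.mem_coe, Subgroup.mem_centralizer_iff]
      intro y hy
      exact (Subgroup.mem_centralizer_iff.1 (hcl hy) x hx).symm
    rw [h1] at hcl2
    intro x y
    exact (Subgroup.mem_centralizer_iff.1 (hcl2 (Subgroup.mem_top x)) y (Subgroup.mem_top y)).symm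
  rw [commutator_def, Subgroup.commutator_le]
  intro x _ y _
  rw [← QuotientGroup.ker_mk' (Subgroup.zpowers ⁅a, b⁆), MonoidHom.mem_ker, map_commutatorElement,
    commutatorElement_eq_one_iff_mul_comm]
  exact hcomm _ _

theorem center_eq_inf {a b : G} (hab : Subgroup.closure {a, b} = ⊤) :
    Subgroup.center G = Subgroup.centralizer ({a} : Set G) ⊓ Subgroup.centralizer ({b} : Set G) := by
  apply le_antisymm
  · exact le_inf (Subgroup.center_le_centralizer _) (Subgroup.center_le_centralizer _)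
  · intro x hx
    obtain ⟨h1, h2⟩ := Subgroup.mem_inf.1 hx
    rw [Subgroup.mem_centralizer_singleton_iff] at h1 h2
    have h3 : Subgroup.closure {a, b} ≤ Subgroup.centralizer ({x} : Set G) := by
      rw [Subgroup.closure_le]
      rintro y (rfl | rfl)
      · rw [SetLike.mem_coe, Subgroup.mem_centralizer_singleton_iff]; exact h1.symm
      · rw [SetLike.mem_coe, Subgroup.mem_centralizer_singleton_iff]; exact h2.symm
    rw [hab] at h3
    rw [Subgroup.mem_center_iff]
    intro g
    exact Subgroup.mem_centralizer_singleton_iff.1 (h3 (Subgroup.mem_top g))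

/-- Lemma C -/
theorem center_index (h : CycDer p G) {a b : G} (hab : Subgroup.closure {a, b} = ⊤) :
    (Subgroup.center G).index = Nat.card (commutator G) ^ 2 := by
  have hcard : Nat.card (commutator G) = orderOf ⁅a, b⁆ := by
    rw [commutator_eq_zpowers h hab, Nat.card_zpowers]
  have hle : ∀ g : G, (Subgroup.centralizer ({g} : Set G)).index ≤ Nat.card (commutator G) :=
    fun g => index_centralizer_le (h.comm_mem g)
  have h1 : (Subgroup.centralizer ({a} : Set G)).index = Nat.card (commutator G) := by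
    apply le_antisymm (hle a)
    rw [hcard]; exact h.orderOf_le_index a b
  have h2 : (Subgroup.centralizer ({b} : Set G)).relIndex (Subgroup.centralizer ({a} : Set G)) = Nat.card (commutator G) := by
    apply le_antisymm
    · exact (relIndex_le_index' _ _).trans (hle b)
    · rw [hcard]
      have h3 : orderOf ⁅a, b⁆ = orderOf ⁅b, a⁆ := by rw [← commutatorElement_inv, orderOf_inv]
      rw [h3]
      refine (h.orderOf_le_relIndex b a).trans ?_
      apply Subgroup.relIndex_le_of_le_right
      · rw [Subgroup.zpowers_le, Subgroup.mem_centralizer_singleton_iff]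
      · exact Subgroup.index_ne_zero_of_finite (H := (Subgroup.centralizer ({b} : Set G)).subgroupOf (Subgroup.centralizer ({a} : Set G)))
  rw [center_eq_inf hab]
  have h4 := Subgroup.relIndex_inf_mul_relIndex (H := Subgroup.centralizer ({b} : Set G)) (K := Subgroup.centralizer ({a} : Set G)) (L := ⊤)
  rw [inf_top_eq, Subgroup.relIndex_top_right, Subgroup.relIndex_top_right, h1, h2, inf_comm] at h4
  rw [← h4, pow_two]

omit [Finite G] in
theorem commutator_quotient (D : Subgroup G) [D.Normal] :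
    commutator (G ⧸ D) = (commutator G).map (QuotientGroup.mk' D) := by
  rw [commutator_def, commutator_def, Subgroup.map_commutator, Subgroup.map_top_of_surjective _ (QuotientGroup.mk'_surjective D)]

omit [Finite G] in
theorem isCyclic_map {H : Type*} [Group H] (f : G →* H) {K : Subgroup G} (hK : IsCyclic K) : IsCyclic (K.map f) := by
  haveI := hK
  exact isCyclic_of_surjective (f.subgroupMap K) (f.subgroupMap_surjective K)

theorem cycDer_quotient (h : CycDer p G) (D : Subgroup G) [D.Normal] : CycDer p (G ⧸ D) where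
  hp := h.hp
  hp2 := h.hp2
  pgroup := h.pgroup.to_quotient D
  cyc := by rw [commutator_quotient]; exact isCyclic_map _ h.cyc

omit [Finite G] in
theorem closure_quotient (D : Subgroup G) [D.Normal] {a b : G} (hab : Subgroup.closure {a, b} = ⊤) :
    Subgroup.closure {(QuotientGroup.mk' D) a, (QuotientGroup.mk' D) b} = ⊤ := by
  have := congrArg (Subgroup.map (QuotientGroup.mk' D)) hab
  rw [MonoidHom.map_closure, Subgroup.map_top_of_surjective _ (QuotientGroup.mk'_surjective _), Set.image_pair] at this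
  exact this

/-- the elements central modulo `D` -/
def csub (D : Subgroup G) [D.Normal] : Subgroup G := (Subgroup.center (G ⧸ D)).comap (QuotientGroup.mk' D)

omit [Finite G] in
theorem mem_csub {D : Subgroup G} [D.Normal] {g : G} : g ∈ csub D ↔ ∀ x : G, ⁅g, x⁆ ∈ D := by
  rw [csub, Subgroup.mem_comap, Subgroup.mem_center_iff]
  constructor
  · intro h x
    rw [← QuotientGroup.ker_mk' D, MonoidHom.mem_ker, map_commutatorElement, commutatorElement_eq_one_iff_mul_comm]
    exact (h _).symm
  · intro h y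
    obtain ⟨x, rfl⟩ := QuotientGroup.mk'_surjective D y
    have := h x
    rw [← QuotientGroup.ker_mk' D, MonoidHom.mem_ker, map_commutatorElement, commutatorElement_eq_one_iff_mul_comm] at this
    exact this.symm

omit [Finite G] in
instance csub_normal (D : Subgroup G) [D.Normal] : (csub D).Normal := by
  rw [csub]; infer_instance

theorem csub_index (h : CycDer p G) {a b : G} (hab : Subgroup.closure {a, b} = ⊤) (D : Subgroup G) [D.Normal] :
    (csub D).index = Nat.card (commutator (G ⧸ D)) ^ 2 := by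
  rw [csub, Subgroup.index_comap_of_surjective _ (QuotientGroup.mk'_surjective D)]
  exact center_index (cycDer_quotient h D) (closure_quotient D hab)

theorem card_commutator_quotient (D : Subgroup G) [D.Normal] (hD : D ≤ commutator G) :
    Nat.card (commutator (G ⧸ D)) * Nat.card D = Nat.card (commutator G) := by
  rw [commutator_quotient]
  exact card_map_mk'_mul_card_of_le D _ hD

/-- a normal subgroup containing all `p^s`-th powers and commutators has index at most `p^(2s)` -/
theorem index_le_of_pow (M : Subgroup G) [M.Normal] {a b : G} (hab : Subgroup.closure {a, b} = ⊤) {k : ℕ} (hk : 0 < k)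
    (hpow : ∀ x : G, x ^ k ∈ M) (hcomm : commutator G ≤ M) : M.index ≤ k ^ 2 := by
  have hab' := closure_quotient M hab
  letI : CommGroup (G ⧸ M) := { (inferInstance : Group (G ⧸ M)) with
    mul_comm := by
      intro x y
      obtain ⟨x, rfl⟩ := QuotientGroup.mk'_surjective M x
      obtain ⟨y, rfl⟩ := QuotientGroup.mk'_surjective M y
      rw [← commutatorElement_eq_one_iff_mul_comm, ← map_commutatorElement, ← MonoidHom.mem_ker, QuotientGroup.ker_mk']
      exact hcomm (Subgroup.commutator_mem_commutator (Subgroup.mem_top x) (Subgroup.mem_top y)) }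
  let f : Fin k × Fin k → G ⧸ M := fun ij => (QuotientGroup.mk' M a) ^ (ij.1 : ℕ) * (QuotientGroup.mk' M b) ^ (ij.2 : ℕ)
  have hf : Function.Surjective f := by
    intro y
    have hy : y ∈ Subgroup.closure {(QuotientGroup.mk' M) a, (QuotientGroup.mk' M) b} := by rw [hab']; trivial
    rw [Subgroup.mem_closure_pair] at hy
    obtain ⟨i, j, rfl⟩ := hy
    have hred : ∀ (x : G ⧸ M) (i : ℤ), ∃ t : Fin k, x ^ i = x ^ (t : ℕ) := by
      intro x i
      have hx : x ^ k = 1 := by
        obtain ⟨x, rfl⟩ := QuotientGroup.mk'_surjective M x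
        rw [← map_pow, ← MonoidHom.mem_ker, QuotientGroup.ker_mk']
        exact hpow x
      have hk' : (0 : ℤ) < k := by exact_mod_cast hk
      refine ⟨⟨(i % k).toNat, ?_⟩, ?_⟩
      · have := Int.emod_lt_of_pos i hk'
        have h0 := Int.emod_nonneg i hk'.ne'
        omega
      · have h0 := Int.emod_nonneg i hk'.ne'
        have h1 : (((i % k).toNat : ℕ) : ℤ) = i % k := Int.toNat_of_nonneg h0
        change x ^ i = x ^ ((i % k).toNat)
        rw [← zpow_natCast, h1]
        conv_lhs => rw [← Int.emod_add_mul_ediv i k, zpow_add, zpow_mul, zpow_natCast, hx, one_zpow, mul_one]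
    obtain ⟨t, ht⟩ := hred ((QuotientGroup.mk' M) a) i
    obtain ⟨t', ht'⟩ := hred ((QuotientGroup.mk' M) b) j
    exact ⟨(t, t'), by rw [ht, ht']⟩
  have h1 := Nat.card_le_card_of_surjective f hf
  rw [Nat.card_prod, Nat.card_fin, ← Subgroup.index_eq_card, ← pow_two] at h1
  exact h1

/-- elements of the derived subgroup are central modulo `p`-th powers -/
theorem comm_mem_zpowers_pow (h : CycDer p G) {c : G} (hc : c ∈ commutator G) (x : G) : ⁅c, x⁆ ∈ Subgroup.zpowers (c ^ p) := by
  haveI : Fact p.Prime := ⟨h.hp⟩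
  obtain ⟨w, hw⟩ := exists_conj_eq h.pgroup h.cyc x hc
  have h1 : ⁅c, x⁆ = (c ^ p) ^ (-w) := by
    have h2 : ⁅c, x⁆ = c * (x * c * x⁻¹)⁻¹ := by rw [commutatorElement_def]; group
    rw [h2, hw, ← zpow_neg, ← zpow_one_add, ← zpow_natCast, ← zpow_mul]
    congr 1
    ring
  rw [h1]
  exact Subgroup.zpow_mem _ (Subgroup.mem_zpowers _) _

/-- Lemma D -/
theorem commutator_of_index_prime (h : CycDer p G) {a b : G} (hab : Subgroup.closure {a, b} = ⊤)
    (hne : commutator G ≠ ⊥) {L : Subgroup G} (hL : L.index = p) :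
    Nat.card (⁅L, L⁆ : Subgroup G) * p = Nat.card (commutator G) := by
  haveI hfp : Fact p.Prime := ⟨h.hp⟩
  haveI : Group.IsNilpotent G := h.pgroup.isNilpotent
  have hLc : IsCoatom L := by
    refine ⟨?_, ?_⟩
    · rintro rfl
      rw [Subgroup.index_top] at hL
      exact h.hp.one_lt.ne hL
    · intro K hK
      have h1 := Subgroup.relIndex_mul_index hK.le
      rw [hL] at h1
      rcases (Nat.dvd_prime h.hp).1 (Dvd.intro_left _ h1) with h2 | h2
      · exact Subgroup.index_eq_one.1 h2
      · rw [h2] at h1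
        have h3 : L.relIndex K = 1 := Nat.eq_of_mul_eq_mul_right h.hp.pos (by rw [h1, one_mul])
        rw [Subgroup.relIndex_eq_one] at h3
        exact absurd h3 (not_le_of_gt hK)
  haveI hLn : L.Normal := CfsgLib.SolvFrat.normal_of_isCoatom hLc
  have hpowL : ∀ x : G, x ^ p ∈ L := fun x => CfsgLib.SolvFrat.pow_mem_of_index_prime h.hp hL x
  have hcommL : commutator G ≤ L := CfsgLib.SolvFrat.commutator_le_of_index_prime h.hp hL
  -- good generators
  obtain ⟨a', b', ha'L, hab'⟩ : ∃ a' b' : G, a' ∈ L ∧ Subgroup.closure {a', b'} = ⊤ := by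
    by_cases haL : a ∈ L
    · exact ⟨a, b, haL, hab⟩
    · -- b ∈ a^i L
      have hcyc : IsCyclic (G ⧸ L) := isCyclic_of_prime_card (p := p) (by rw [← Subgroup.index_eq_card]; exact hL)
      have hsup : Subgroup.zpowers ((QuotientGroup.mk' L) a) = ⊤ := by
        have hcard : Nat.card (G ⧸ L) = p := by rw [← Subgroup.index_eq_card]; exact hL
        have h1 : Nat.card (Subgroup.zpowers ((QuotientGroup.mk' L) a)) ∣ p := by
          rw [← hcard]; exact Subgroup.card_subgroup_dvd_card _
        rcases (Nat.dvd_prime h.hp).1 h1 with h2 | h2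
        · exfalso
          apply haL
          rw [Nat.card_zpowers, orderOf_eq_one_iff, ← MonoidHom.mem_ker, QuotientGroup.ker_mk'] at h2
          exact h2
        · apply Subgroup.eq_top_of_card_eq
          rw [h2, hcard]
      have hb : (QuotientGroup.mk' L) b ∈ Subgroup.zpowers ((QuotientGroup.mk' L) a) := by rw [hsup]; trivial
      obtain ⟨i, hi⟩ := Subgroup.mem_zpowers_iff.1 hb
      refine ⟨a ^ (-i) * b, a, ?_, ?_⟩
      · rw [← QuotientGroup.ker_mk' L, MonoidHom.mem_ker, map_mul, map_zpow, ← hi]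
        group
      · rw [eq_top_iff, ← hab, Subgroup.closure_le]
        have hA : a ∈ Subgroup.closure {a ^ (-i) * b, a} := Subgroup.subset_closure (by simp)
        have hB : a ^ (-i) * b ∈ Subgroup.closure {a ^ (-i) * b, a} := Subgroup.subset_closure (by simp)
        obtain ⟨S, hS⟩ : ∃ S, S = Subgroup.closure {a ^ (-i) * b, a} := ⟨_, rfl⟩
        rw [← hS] at hA hB ⊢
        rintro y (rfl | rfl)
        · exact hA
        · have h2 := mul_mem (Subgroup.zpow_mem _ hA i) hB
          rwa [← mul_assoc, ← zpow_add, add_neg_cancel, zpow_zero, one_mul] at h2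
  obtain ⟨c, hc⟩ : ∃ c, c = ⁅a', b'⁆ := ⟨_, rfl⟩
  have hG' : commutator G = Subgroup.zpowers c := by rw [hc]; exact commutator_eq_zpowers h hab'
  have hcG' : c ∈ commutator G := by rw [hG']; exact Subgroup.mem_zpowers c
  have hDle : Subgroup.zpowers (c ^ p) ≤ commutator G := Subgroup.zpowers_le.2 ((commutator G).pow_mem hcG' p)
  haveI hDn : (Subgroup.zpowers (c ^ p)).Normal := normal_of_le h.cyc hDle
  have hc1 : c ≠ 1 := by
    rintro rfl
    rw [Subgroup.zpowers_one_eq_bot] at hG'
    exact hne hG'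
  have hcardD : Nat.card (Subgroup.zpowers (c ^ p)) * p = Nat.card (commutator G) := by
    rw [hG', Nat.card_zpowers, Nat.card_zpowers]
    obtain ⟨j, hj⟩ := h.pgroup c
    obtain ⟨i, _, hi⟩ := (Nat.dvd_prime_pow h.hp).1 (orderOf_dvd_of_pow_eq_one hj)
    have hdvd : p ∣ orderOf c := by
      rcases i with _ | i
      · exact absurd (orderOf_eq_one_iff.1 hi) hc1
      · rw [hi, pow_succ]; exact dvd_mul_left _ _
    rw [orderOf_pow_of_dvd h.hp.ne_zero hdvd, Nat.div_mul_cancel hdvd]
  -- the centre modulo `c^p`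
  have hcq : Nat.card (commutator (G ⧸ Subgroup.zpowers (c ^ p))) = p := by
    have h1 := card_commutator_quotient (Subgroup.zpowers (c ^ p)) hDle
    rw [← hcardD, mul_comm] at h1
    exact Nat.eq_of_mul_eq_mul_left Nat.card_pos h1
  have hZi := csub_index h hab' (Subgroup.zpowers (c ^ p))
  rw [hcq] at hZi
  have hpowZ : ∀ x : G, x ^ p ∈ csub (Subgroup.zpowers (c ^ p)) := by
    intro x
    rw [mem_csub]
    intro y
    have h1 : ⁅x ^ p, y⁆ ∈ Subgroup.zpowers (⁅x, y⁆ ^ p) := by
      rw [← h.zpowers_pow_left]; exact Subgroup.mem_zpowers _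
    have h2 : ⁅x, y⁆ ∈ Subgroup.zpowers c := by rw [← hG']; exact h.comm_mem x y
    obtain ⟨k, hk⟩ := Subgroup.mem_zpowers_iff.1 h2
    have h3 : Subgroup.zpowers (⁅x, y⁆ ^ p) ≤ Subgroup.zpowers (c ^ p) := by
      have h4 : (c ^ k) ^ p = (c ^ p) ^ k := by
        rw [← zpow_natCast, ← zpow_natCast, ← zpow_mul, ← zpow_mul, mul_comm]
      rw [Subgroup.zpowers_le, ← hk, h4]
      exact Subgroup.zpow_mem _ (Subgroup.mem_zpowers _) _
    exact h3 h1
  have hcommZ : commutator G ≤ csub (Subgroup.zpowers (c ^ p)) := by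
    rw [hG', Subgroup.zpowers_le, mem_csub]
    exact fun x => comm_mem_zpowers_pow h hcG' x
  have hZL : csub (Subgroup.zpowers (c ^ p)) ≤ L := by
    have h1 : (L ⊓ csub (Subgroup.zpowers (c ^ p))).index ≤ p ^ 2 :=
      index_le_of_pow _ hab' h.hp.pos (fun x => Subgroup.mem_inf.2 ⟨hpowL x, hpowZ x⟩) (le_inf hcommL hcommZ)
    have h2 : L ⊓ csub (Subgroup.zpowers (c ^ p)) = csub (Subgroup.zpowers (c ^ p)) := by
      apply Subgroup.eq_of_le_of_card_ge inf_le_right
      have h3 := Subgroup.card_mul_index (L ⊓ csub (Subgroup.zpowers (c ^ p)))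
      have h4 := Subgroup.card_mul_index (csub (Subgroup.zpowers (c ^ p)))
      rw [hZi, ← h3] at h4
      have h5 : Nat.card (csub (Subgroup.zpowers (c ^ p))) * p ^ 2 ≤ Nat.card (L ⊓ csub (Subgroup.zpowers (c ^ p)) : Subgroup G) * p ^ 2 := by
        rw [h4]; exact Nat.mul_le_mul_left _ h1
      exact Nat.le_of_mul_le_mul_right h5 (pow_pos h.hp.pos 2)
    rw [← h2]; exact inf_le_left
  -- L / D is abelian
  have hLD : ⁅L, L⁆ ≤ Subgroup.zpowers (c ^ p) := by
    have hrel : (csub (Subgroup.zpowers (c ^ p))).relIndex L = p := by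
      have h1 := Subgroup.relIndex_mul_index hZL
      rw [hL, hZi, pow_two] at h1
      exact Nat.eq_of_mul_eq_mul_right h.hp.pos h1
    haveI : IsCyclic (L ⧸ (csub (Subgroup.zpowers (c ^ p))).subgroupOf L) :=
      isCyclic_of_prime_card (p := p) (by rw [← Subgroup.index_eq_card]; exact hrel)
    obtain ⟨q, hq⟩ := IsCyclic.exists_generator (α := L ⧸ (csub (Subgroup.zpowers (c ^ p))).subgroupOf L)
    obtain ⟨l, rfl⟩ := QuotientGroup.mk'_surjective _ q
    have hdec : ∀ x ∈ L, ∃ (i : ℤ) (z : G), z ∈ csub (Subgroup.zpowers (c ^ p)) ∧ x = (l : G) ^ i * z := by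
      intro x hx
      obtain ⟨i, hi⟩ := Subgroup.mem_zpowers_iff.1 (hq (QuotientGroup.mk' _ ⟨x, hx⟩))
      rw [← map_zpow] at hi
      have h1 := QuotientGroup.eq.1 hi
      rw [Subgroup.mem_subgroupOf] at h1
      refine ⟨i, ((l : G) ^ i)⁻¹ * x, h1, by group⟩
    rw [Subgroup.commutator_le]
    intro x hx y hy
    obtain ⟨i, z, hz, rfl⟩ := hdec x hx
    obtain ⟨j, z', hz', rfl⟩ := hdec y hy
    rw [← QuotientGroup.ker_mk' (Subgroup.zpowers (c ^ p)), MonoidHom.mem_ker, map_commutatorElement,
      commutatorElement_eq_one_iff_mul_comm]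
    have hz1 := Subgroup.mem_center_iff.1 (show (QuotientGroup.mk' (Subgroup.zpowers (c ^ p))) z ∈ Subgroup.center _ from hz)
    have hz2 := Subgroup.mem_center_iff.1 (show (QuotientGroup.mk' (Subgroup.zpowers (c ^ p))) z' ∈ Subgroup.center _ from hz')
    simp only [map_mul, map_zpow]
    obtain ⟨L0, hL0⟩ : ∃ L0, L0 = (QuotientGroup.mk' (Subgroup.zpowers (c ^ p))) (l : G) := ⟨_, rfl⟩
    obtain ⟨Z0, hZ0⟩ : ∃ Z0, Z0 = (QuotientGroup.mk' (Subgroup.zpowers (c ^ p))) z := ⟨_, rfl⟩
    obtain ⟨Z1, hZ1⟩ : ∃ Z1, Z1 = (QuotientGroup.mk' (Subgroup.zpowers (c ^ p))) z' := ⟨_, rfl⟩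
    rw [← hL0, ← hZ0, ← hZ1]
    rw [← hZ0] at hz1
    rw [← hZ1] at hz2
    calc L0 ^ i * Z0 * (L0 ^ j * Z1) = L0 ^ i * (Z0 * (L0 ^ j * Z1)) := by rw [mul_assoc]
      _ = L0 ^ i * ((L0 ^ j * Z1) * Z0) := by rw [hz1]
      _ = (L0 ^ i * L0 ^ j) * (Z1 * Z0) := by simp only [mul_assoc]
      _ = (L0 ^ j * L0 ^ i) * (Z1 * Z0) := by rw [← zpow_add, ← zpow_add, add_comm]
      _ = L0 ^ j * (L0 ^ i * Z1) * Z0 := by simp only [mul_assoc]
      _ = L0 ^ j * (Z1 * L0 ^ i) * Z0 := by rw [hz2]
      _ = L0 ^ j * Z1 * (L0 ^ i * Z0) := by simp only [mul_assoc]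
  have hDL : Subgroup.zpowers (c ^ p) ≤ ⁅L, L⁆ := by
    have h1 : Subgroup.zpowers ⁅a', b' ^ p⁆ = Subgroup.zpowers (c ^ p) := by
      have h2 := h.zpowers_pow_left b' a'
      have h3 : Subgroup.zpowers ⁅a', b' ^ p⁆ = Subgroup.zpowers ⁅b' ^ p, a'⁆ := by
        rw [← commutatorElement_inv, Subgroup.zpowers_inv]
      have h4 : Subgroup.zpowers (⁅b', a'⁆ ^ p) = Subgroup.zpowers (c ^ p) := by
        rw [hc, ← commutatorElement_inv, inv_pow, Subgroup.zpowers_inv]
      rw [h3, h2, h4]
    rw [← h1, Subgroup.zpowers_le]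
    exact Subgroup.commutator_mem_commutator ha'L (hpowL b')
  rw [le_antisymm hLD hDL, hcardD]

end CfsgLib.MetacB
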