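import Cfsg.Agent.EqBase
import Mathlib
import Cfsg.Agent.LibMetacB

set_option autoImplicit false
set_option linter.style.haveILetI false

/-!
Finite `p`-groups, `p` odd, with cyclic derived subgroup and all subgroups two-generated (for example metacyclic ones).
-/

namespace CfsgLib.MetacC

open CfsgLib.MetacA CfsgLib.MetacB CfsgLib.SolvBasic
open scoped commutatorElement Pointwise

universe u

/-- cyclic derived subgroup and all subgroups two-generated -/
structure TwoGen (p : ℕ) (G : Type u) [Group G] : Prop where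
  cd : CycDer p G
  gen : ∀ M : Subgroup G, ∃ a b : G, Subgroup.closure {a, b} = M

variable {G : Type u} [Group G] [Finite G] {p : ℕ}

theorem twoGen_of_metacyclic (hp : p.Prime) (hp2 : p ≠ 2) (hG : IsPGroup p G) (hmc : Cfsg.IsMetacyclic G) : TwoGen p G := by
  obtain ⟨N, hN, hNc, hqc⟩ := hmc
  have hle : commutator G ≤ N := by
    haveI := hqc
    letI : CommGroup (G ⧸ N) := IsCyclic.commGroup
    have := Abelianization.commutator_subset_ker (QuotientGroup.mk' N)
    rwa [QuotientGroup.ker_mk'] at this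
  refine ⟨⟨hp, hp2, hG, ?_⟩, ?_⟩
  · haveI := hNc
    exact isCyclic_of_injective (Subgroup.inclusion hle) (Subgroup.inclusion_injective hle)
  · intro M
    haveI := hNc
    haveI : IsCyclic (M ⊓ N : Subgroup G) :=
      isCyclic_of_injective (Subgroup.inclusion inf_le_right) (Subgroup.inclusion_injective inf_le_right)
    haveI := hqc
    haveI : IsCyclic (M.map (QuotientGroup.mk' N)) := inferInstance
    obtain ⟨⟨a, ha⟩, hagen⟩ := IsCyclic.exists_generator (α := (M ⊓ N : Subgroup G))
    obtain ⟨⟨_, b, hb, rfl⟩, hbgen⟩ := IsCyclic.exists_generator (α := M.map (QuotientGroup.mk' N))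
    refine ⟨a, b, ?_⟩
    apply le_antisymm
    · rw [Subgroup.closure_le]
      rintro x (rfl | rfl)
      · exact ha.1
      · exact hb
    · intro x hx
      obtain ⟨i, hi⟩ := Subgroup.mem_zpowers_iff.1 (hbgen ⟨_, ⟨x, hx, rfl⟩⟩)
      have hi' : (QuotientGroup.mk' N b) ^ i = QuotientGroup.mk' N x := congrArg Subtype.val hi
      have h1 : (b ^ i)⁻¹ * x ∈ M ⊓ N := by
        refine Subgroup.mem_inf.2 ⟨mul_mem (inv_mem (M.zpow_mem hb i)) hx, ?_⟩
        rw [← QuotientGroup.ker_mk' N, MonoidHom.mem_ker, map_mul, map_inv, map_zpow, hi']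
        group
      obtain ⟨j, hj⟩ := Subgroup.mem_zpowers_iff.1 (hagen ⟨_, h1⟩)
      have hj' : a ^ j = (b ^ i)⁻¹ * x := congrArg Subtype.val hj
      have hx' : x = b ^ i * a ^ j := by rw [hj']; group
      rw [hx']
      exact mul_mem (Subgroup.zpow_mem _ (Subgroup.subset_closure (by simp)) i)
        (Subgroup.zpow_mem _ (Subgroup.subset_closure (by simp)) j)

omit [Finite G] in
theorem card_commutator_subgroup (M : Subgroup G) : Nat.card (commutator M) = Nat.card (⁅M, M⁆ : Subgroup G) := by
  have h1 : (commutator M).map M.subtype = ⁅M, M⁆ := by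
    rw [commutator_def, Subgroup.map_commutator, ← MonoidHom.range_eq_map, Subgroup.range_subtype]
  rw [← h1]
  exact Nat.card_congr (Subgroup.equivMapOfInjective _ _ (Subgroup.subtype_injective M)).toEquiv

omit [Finite G] in
theorem map_commutator_subtype_le (M : Subgroup G) : (commutator M).map M.subtype ≤ commutator G := by
  rw [commutator_def, Subgroup.map_commutator, commutator_def]
  exact Subgroup.commutator_mono le_top le_top

theorem cycDer_subgroup (h : CycDer p G) (M : Subgroup G) : CycDer p M where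
  hp := h.hp
  hp2 := h.hp2
  pgroup := h.pgroup.to_subgroup M
  cyc := by
    haveI := h.cyc
    haveI h1 : IsCyclic ((commutator M).map M.subtype) :=
      isCyclic_of_injective (Subgroup.inclusion (map_commutator_subtype_le M)) (Subgroup.inclusion_injective _)
    exact isCyclic_of_injective
      (Subgroup.equivMapOfInjective (commutator M) M.subtype (Subgroup.subtype_injective M)).toMonoidHom (MulEquiv.injective _)

omit [Finite G] in
theorem closure_subtype {M : Subgroup G} {a b : G} (ha : a ∈ M) (hb : b ∈ M) (hab : Subgroup.closure {a, b} = M) :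
    Subgroup.closure {(⟨a, ha⟩ : M), (⟨b, hb⟩ : M)} = ⊤ := by
  apply Subgroup.map_injective (Subgroup.subtype_injective M)
  rw [MonoidHom.map_closure, Set.image_pair, ← MonoidHom.range_eq_map, Subgroup.range_subtype]
  exact hab

omit [Finite G] in
theorem gen_subgroup (h : ∀ M : Subgroup G, ∃ a b : G, Subgroup.closure {a, b} = M) (M : Subgroup G) :
    ∃ a b : M, Subgroup.closure {a, b} = ⊤ := by
  obtain ⟨a, b, hab⟩ := h M
  have ha : a ∈ M := by rw [← hab]; exact Subgroup.subset_closure (by simp)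
  have hb : b ∈ M := by rw [← hab]; exact Subgroup.subset_closure (by simp)
  exact ⟨⟨a, ha⟩, ⟨b, hb⟩, closure_subtype ha hb hab⟩

/-- centre of subgroups -/
theorem TwoGen.center_index (h : TwoGen p G) (L : Subgroup G) :
    (Subgroup.center L).index = Nat.card (⁅L, L⁆ : Subgroup G) ^ 2 := by
  obtain ⟨a, b, hab⟩ := gen_subgroup h.gen L
  rw [CfsgLib.MetacB.center_index (cycDer_subgroup h.cd L) hab, card_commutator_subgroup]

theorem TwoGen.step (h : TwoGen p G) {L M : Subgroup G} (hLM : L ≤ M) (hidx : L.relIndex M = p) (hne : ⁅M, M⁆ ≠ ⊥) :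
    Nat.card (⁅L, L⁆ : Subgroup G) * p = Nat.card (⁅M, M⁆ : Subgroup G) := by
  obtain ⟨a, b, hab⟩ := gen_subgroup h.gen M
  have hne' : commutator M ≠ ⊥ := by
    intro hb
    apply hne
    rw [← Subgroup.card_eq_one, ← card_commutator_subgroup, hb, Subgroup.card_bot]
  have h1 := commutator_of_index_prime (cycDer_subgroup h.cd M) hab hne' (L := L.subgroupOf M) hidx
  rw [card_commutator_subgroup] at h1
  have h2 : (⁅L.subgroupOf M, L.subgroupOf M⁆ : Subgroup M).map M.subtype = ⁅L, L⁆ := by
    rw [Subgroup.map_commutator, Subgroup.map_subgroupOf_eq_of_le hLM]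
  have h3 : Nat.card (⁅L.subgroupOf M, L.subgroupOf M⁆ : Subgroup M) = Nat.card (⁅L, L⁆ : Subgroup G) := by
    rw [← h2]
    exact Nat.card_congr (Subgroup.equivMapOfInjective _ _ (Subgroup.subtype_injective M)).toEquiv
  rw [← h3]; exact h1

/-- the order of the derived subgroup of a subgroup -/
theorem TwoGen.card_commutator (h : TwoGen p G) {N n : ℕ} (hN : Nat.card G = p ^ N) (hn : Nat.card (commutator G) = p ^ n)
    (d : ℕ) : ∀ L : Subgroup G, d ≤ N → Nat.card L = p ^ (N - d) → Nat.card (⁅L, L⁆ : Subgroup G) = p ^ (n - d) := by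
  haveI : Fact p.Prime := ⟨h.cd.hp⟩
  induction d with
  | zero =>
    intro L _ hL
    have : L = ⊤ := Subgroup.eq_top_of_card_eq L (by rw [hL, hN, Nat.sub_zero])
    rw [this, ← commutator_def, hn, Nat.sub_zero]
  | succ d ih =>
    intro L hd hL
    have hd1 : N - d = (N - (d + 1)) + 1 := by omega
    obtain ⟨M, hM, hLM⟩ := Sylow.exists_subgroup_card_pow_succ (n := N - (d + 1)) (by
      rw [hN]; exact Nat.pow_dvd_pow p (by omega)) hL
    have hMc := ih M (by omega) (by rw [hM, hd1])
    by_cases hb : ⁅M, M⁆ = ⊥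
    · rw [hb, Subgroup.card_bot] at hMc
      have h1 : ⁅L, L⁆ = ⊥ := by
        rw [eq_bot_iff, ← hb]; exact Subgroup.commutator_mono hLM hLM
      rw [h1, Subgroup.card_bot]
      have h2 : n - d = 0 := by
        by_contra h3
        have := Nat.one_lt_pow h3 h.cd.hp.one_lt
        omega
      have h3 : n - (d + 1) = 0 := by omega
      rw [h3, pow_zero]
    · have hidx : L.relIndex M = p := by
        have h1 := CfsgLib.SolvHall.card_eq_card_mul_relIndex hLM
        rw [hM, hL, pow_succ] at h1
        exact Nat.eq_of_mul_eq_mul_left (pow_pos h.cd.hp.pos _) h1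
      have h1 := h.step hLM hidx hb
      rw [hMc] at h1
      have h2 : n - d ≠ 0 := by
        intro h3
        rw [h3, pow_zero] at hMc
        exact hb (Subgroup.card_eq_one.1 hMc)
      have h3 : n - d = (n - (d + 1)) + 1 := by omega
      rw [h3, pow_succ] at h1
      exact Nat.eq_of_mul_eq_mul_right h.cd.hp.pos h1

omit [Finite G] in
theorem isMulCommutative_iff (L : Subgroup G) : IsMulCommutative L ↔ ⁅L, L⁆ = ⊥ := by
  rw [Subgroup.commutator_eq_bot_iff_le_centralizer]
  constructor
  · intro h x hx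
    rw [Subgroup.mem_centralizer_iff]
    intro y hy
    exact congrArg Subtype.val (h.is_comm.comm ⟨y, hy⟩ ⟨x, hx⟩)
  · intro h
    exact ⟨⟨fun x y => Subtype.ext (Subgroup.mem_centralizer_iff.1 (h y.2) x x.2)⟩⟩

/-- exponents -/
theorem exists_exponents (h : CycDer p G) : ∃ N n : ℕ, Nat.card G = p ^ N ∧ Nat.card (commutator G) = p ^ n ∧ n ≤ N ∧
    (commutator G).index = p ^ (N - n) := by
  haveI : Fact p.Prime := ⟨h.hp⟩
  obtain ⟨N, hN⟩ := IsPGroup.iff_card.1 h.pgroup
  obtain ⟨n, hn⟩ := IsPGroup.iff_card.1 (h.pgroup.to_subgroup (commutator G))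
  have h1 := Subgroup.card_mul_index (commutator G)
  rw [hN, hn] at h1
  have hle : n ≤ N := (Nat.pow_dvd_pow_iff_le_right h.hp.one_lt).1 (Dvd.intro _ h1)
  refine ⟨N, n, hN, hn, hle, ?_⟩
  have h2 : p ^ N = p ^ n * p ^ (N - n) := by rw [← pow_add]; congr 1; omega
  rw [h2] at h1
  exact Nat.eq_of_mul_eq_mul_left (pow_pos h.hp.pos _) h1

theorem TwoGen.comm_iff (h : TwoGen p G) (L : Subgroup G) :
    IsMulCommutative L ↔ Nat.card L ≤ (commutator G).index := by
  haveI : Fact p.Prime := ⟨h.cd.hp⟩
  obtain ⟨N, n, hN, hn, hle, hidx⟩ := exists_exponents h.cd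
  obtain ⟨j, hj⟩ := IsPGroup.iff_card.1 (h.cd.pgroup.to_subgroup L)
  have hjN : j ≤ N := by
    have := Subgroup.card_subgroup_dvd_card L
    rw [hj, hN] at this
    exact (Nat.pow_dvd_pow_iff_le_right h.cd.hp.one_lt).1 this
  have h1 := h.card_commutator hN hn (N - j) L (by omega) (by rw [hj]; congr 1; omega)
  rw [isMulCommutative_iff, ← Subgroup.card_eq_one, h1, hidx, hj, Nat.pow_le_pow_iff_right h.cd.hp.one_lt]
  constructor
  · intro h2
    have h3 : n - (N - j) = 0 := by
      by_contra h3
      exact absurd h2 (Nat.one_lt_pow h3 h.cd.hp.one_lt).ne'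
    omega
  · intro h2
    have h3 : n - (N - j) = 0 := by omega
    rw [h3, pow_zero]

theorem TwoGen.maximal_iff (h : TwoGen p G) (L : Subgroup G) :
    Maximal (fun K : Subgroup G => IsMulCommutative K) L ↔ Nat.card L = (commutator G).index := by
  haveI : Fact p.Prime := ⟨h.cd.hp⟩
  obtain ⟨N, n, hN, hn, hle, hidx⟩ := exists_exponents h.cd
  constructor
  · intro hm
    have h1 := (h.comm_iff L).1 hm.prop
    obtain ⟨j, hj⟩ := IsPGroup.iff_card.1 (h.cd.pgroup.to_subgroup L)
    rw [hj, hidx, Nat.pow_le_pow_iff_right h.cd.hp.one_lt] at h1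
    rcases eq_or_lt_of_le h1 with h2 | h2
    · rw [hj, hidx, h2]
    · exfalso
      obtain ⟨M, hM, hLM⟩ := Sylow.exists_subgroup_card_pow_succ (n := j) (by
        rw [hN]; exact Nat.pow_dvd_pow p (by omega)) hj
      have h3 : IsMulCommutative M := by
        rw [h.comm_iff, hM, hidx]
        exact Nat.pow_le_pow_right h.cd.hp.pos (by omega)
      have h4 := Subgroup.card_le_of_le (hm.le_of_ge h3 hLM)
      rw [hM, hj, Nat.pow_le_pow_iff_right h.cd.hp.one_lt] at h4
      omega
  · intro hc
    refine ⟨(h.comm_iff L).2 hc.le, ?_⟩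
    intro K hK hLK
    have h1 := (h.comm_iff K).1 hK
    rw [← hc] at h1
    exact (Subgroup.eq_of_le_of_card_ge hLK h1).ge

end CfsgLib.MetacC
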