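import Cfsg.Agent.EqBase
import Mathlib
import Cfsg.Agent.LibMetacC

set_option autoImplicit false
set_option linter.style.haveILetI false

/-!
Class sizes, power subgroups and centralisers in `p`-groups with cyclic derived subgroup.
-/

namespace CfsgLib.MetacD

open CfsgLib.MetacA CfsgLib.MetacB CfsgLib.MetacC CfsgLib.SolvBasic
open scoped commutatorElement Pointwise

universe u

variable {G : Type u} [Group G] [Finite G] {p : ℕ}

/-- In a cyclic group of order `p^n` generated by `c`. -/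
theorem mem_zpowers_pow_iff (hp : p.Prime) {c y : G} {n s : ℕ} (hc : orderOf c = p ^ n) (hs : s ≤ n)
    (hy : y ∈ Subgroup.zpowers c) : y ∈ Subgroup.zpowers (c ^ p ^ s) ↔ y ^ p ^ (n - s) = 1 := by
  obtain ⟨k, rfl⟩ := Subgroup.mem_zpowers_iff.1 hy
  constructor
  · intro h
    obtain ⟨m, hm⟩ := Subgroup.mem_zpowers_iff.1 h
    rw [← hm, ← zpow_natCast, ← zpow_mul, mul_comm, zpow_mul, zpow_natCast, ← pow_mul, ← pow_add,
      show s + (n - s) = n by omega, ← hc, pow_orderOf_eq_one, one_zpow]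
  · intro h
    have h1 : c ^ (k * (p ^ (n - s) : ℕ)) = 1 := by rw [zpow_mul, zpow_natCast]; exact h
    rw [← orderOf_dvd_iff_zpow_eq_one, hc] at h1
    have h2 : ((p ^ n : ℕ) : ℤ) = (p ^ s : ℕ) * (p ^ (n - s) : ℕ) := by
      rw [← Nat.cast_mul, ← pow_add, show s + (n - s) = n by omega]
    rw [h2] at h1
    have h3 : ((p ^ s : ℕ) : ℤ) ∣ k := by
      have h4 : ((p ^ (n - s) : ℕ) : ℤ) ≠ 0 := by exact_mod_cast (pow_pos hp.pos _).ne'
      exact Int.dvd_of_mul_dvd_mul_right h4 h1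
    obtain ⟨m, rfl⟩ := h3
    rw [zpow_mul, zpow_natCast]
    exact Subgroup.zpow_mem _ (Subgroup.mem_zpowers _) m

/-- the elements with class size at most `p^(n-s)` -/
theorem exists_csub (h : CycDer p G) (hgen : ∃ a b : G, Subgroup.closure {a, b} = ⊤) {n : ℕ}
    (hn : Nat.card (commutator G) = p ^ n) {s : ℕ} (hs : s ≤ n) :
    ∃ C : Subgroup G, C.Normal ∧ (∀ g, g ∈ C ↔ (Subgroup.centralizer ({g} : Set G)).index ≤ p ^ (n - s)) ∧
      C.index = p ^ (2 * s) := by
  obtain ⟨a, b, hab⟩ := hgen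
  obtain ⟨c, hc⟩ : ∃ c, c = ⁅a, b⁆ := ⟨_, rfl⟩
  have hG' : commutator G = Subgroup.zpowers c := by rw [hc]; exact commutator_eq_zpowers h hab
  have hord : orderOf c = p ^ n := by rw [← Nat.card_zpowers, ← hG', hn]
  have hcG' : c ∈ commutator G := by rw [hG']; exact Subgroup.mem_zpowers c
  have hDle : Subgroup.zpowers (c ^ p ^ s) ≤ commutator G := Subgroup.zpowers_le.2 ((commutator G).pow_mem hcG' _)
  haveI hDn : (Subgroup.zpowers (c ^ p ^ s)).Normal := normal_of_le h.cyc hDle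
  refine ⟨csub (Subgroup.zpowers (c ^ p ^ s)), inferInstance, ?_, ?_⟩
  · intro g
    rw [h.index_le_iff, mem_csub]
    constructor
    · intro h1 x
      exact (mem_zpowers_pow_iff h.hp hord hs (by rw [← hG']; exact h.comm_mem g x)).1 (h1 x)
    · intro h1 x
      exact (mem_zpowers_pow_iff h.hp hord hs (by rw [← hG']; exact h.comm_mem g x)).2 (h1 x)
  · rw [csub_index h hab]
    have h1 := card_commutator_quotient (Subgroup.zpowers (c ^ p ^ s)) hDle
    have h2 : Nat.card (Subgroup.zpowers (c ^ p ^ s)) = p ^ (n - s) := by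
      rw [Nat.card_zpowers, orderOf_pow_of_dvd (pow_pos h.hp.pos s).ne' (by rw [hord]; exact Nat.pow_dvd_pow p hs), hord,
        Nat.pow_div hs h.hp.pos]
    rw [h2, hn, ← Nat.sub_add_cancel hs, pow_add, show n - s + s - s = n - s by omega, mul_comm] at h1
    rw [Nat.eq_of_mul_eq_mul_left (pow_pos h.hp.pos _) h1, ← pow_mul, mul_comm]

theorem index_le_of_factor (M : Subgroup G) [M.Normal] {a b : G} (hab : ∀ x : G, ∃ i j : ℤ, x = b ^ i * a ^ j) {k : ℕ} (hk : 0 < k)
    (hpow : ∀ x : G, x ^ k ∈ M) : M.index ≤ k ^ 2 := by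
  let f : Fin k × Fin k → G ⧸ M := fun ij => (QuotientGroup.mk' M b) ^ (ij.1 : ℕ) * (QuotientGroup.mk' M a) ^ (ij.2 : ℕ)
  have hf : Function.Surjective f := by
    intro y
    obtain ⟨y, rfl⟩ := QuotientGroup.mk'_surjective M y
    obtain ⟨i, j, rfl⟩ := hab y
    have hred : ∀ (x : G ⧸ M) (i : ℤ), ∃ t : Fin k, x ^ i = x ^ (t : ℕ) := by
      intro x i
      have hx : x ^ k = 1 := by
        obtain ⟨x, rfl⟩ := QuotientGroup.mk'_surjective M x
        rw [← map_pow, ← MonoidHom.mem_ker, QuotientGroup.ker_mk']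
        exact hpow x
      have hk' : (0 : ℤ) < k := by exact_mod_cast hk
      refine ⟨⟨(i % k).toNat, ?_⟩, ?_⟩
      · have := Int.emod_lt_of_pos i hk'
        have h0 := Int.emod_nonneg i hk'.ne'
        omega
      · have h0 := Int.emod_nonneg i hk'.ne'
        have h1 : (((i % k).toNat : ℕ) : ℤ) = i % k := Int.toNat_of_nonneg h0
        change x ^ i = x ^ ((i % k).toNat)
        rw [← zpow_natCast, h1]
        conv_lhs => rw [← Int.emod_add_mul_ediv i k, zpow_add, zpow_mul, zpow_natCast, hx, one_zpow, mul_one]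
    obtain ⟨t, ht⟩ := hred ((QuotientGroup.mk' M) b) i
    obtain ⟨t', ht'⟩ := hred ((QuotientGroup.mk' M) a) j
    refine ⟨(t, t'), ?_⟩
    rw [map_mul, map_zpow, map_zpow, ht, ht']
  have h1 := Nat.card_le_card_of_surjective f hf
  rw [Nat.card_prod, Nat.card_fin, ← Subgroup.index_eq_card, ← pow_two] at h1
  exact h1

theorem exists_factor (hmc : Cfsg.IsMetacyclic G) : ∃ a b : G, ∀ x : G, ∃ i j : ℤ, x = b ^ i * a ^ j := by
  obtain ⟨N, hN, hNc, hqc⟩ := hmc
  obtain ⟨⟨a, ha⟩, hagen⟩ := IsCyclic.exists_generator (α := N)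
  obtain ⟨q, hbgen⟩ := IsCyclic.exists_generator (α := G ⧸ N)
  obtain ⟨b, rfl⟩ := QuotientGroup.mk'_surjective N q
  refine ⟨a, b, fun x => ?_⟩
  obtain ⟨i, hi⟩ := Subgroup.mem_zpowers_iff.1 (hbgen (QuotientGroup.mk' N x))
  have h1 : (b ^ i)⁻¹ * x ∈ N := by
    rw [← QuotientGroup.ker_mk' N, MonoidHom.mem_ker, map_mul, map_inv, map_zpow, hi]
    group
  obtain ⟨j, hj⟩ := Subgroup.mem_zpowers_iff.1 (hagen ⟨_, h1⟩)
  have hj' : a ^ j = (b ^ i)⁻¹ * x := congrArg Subtype.val hj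
  exact ⟨i, j, by rw [hj']; group⟩

/-- the power subgroups -/
theorem closure_pow (h : TwoGen p G) (hmc : Cfsg.IsMetacyclic G) {n : ℕ}
    (hn : Nat.card (commutator G) = p ^ n) {s : ℕ} (hs : s ≤ n) (g : G) :
    g ∈ Subgroup.closure {x : G | ∃ y : G, y ^ p ^ s = x} ↔ (Subgroup.centralizer ({g} : Set G)).index ≤ p ^ (n - s) := by
  obtain ⟨C, hCn, hC, hCi⟩ := exists_csub h.cd (h.gen ⊤) hn hs
  obtain ⟨U, hU⟩ : ∃ U, U = Subgroup.closure {x : G | ∃ y : G, y ^ p ^ s = x} := ⟨_, rfl⟩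
  have hUC : U ≤ C := by
    rw [hU, Subgroup.closure_le]
    rintro _ ⟨y, rfl⟩
    rw [SetLike.mem_coe, hC, h.cd.index_le_iff]
    intro x
    have h1 := zpowers_pow_of_eq (h.cd.zpowers_pow_pow_left y x s) (p ^ (n - s))
    rw [eq_one_iff_of_zpowers_eq h1, ← pow_mul, ← pow_add, show s + (n - s) = n by omega]
    have h2 : orderOf (⟨⁅y, x⁆, h.cd.comm_mem y x⟩ : commutator G) ∣ p ^ n := by rw [← hn]; exact orderOf_dvd_natCard _
    rw [orderOf_dvd_iff_pow_eq_one] at h2
    exact congrArg Subtype.val h2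
  haveI hUn : U.Normal := by
    constructor
    intro x hx g
    have h1 : U ≤ U.comap (MulAut.conj g).toMonoidHom := by
      conv_lhs => rw [hU]
      rw [Subgroup.closure_le]
      rintro _ ⟨y, rfl⟩
      rw [SetLike.mem_coe, Subgroup.mem_comap, hU]
      apply Subgroup.subset_closure
      exact ⟨g * y * g⁻¹, by rw [conj_pow]; rfl⟩
    exact h1 hx
  obtain ⟨a, b, hab⟩ := exists_factor hmc
  have hUi : U.index ≤ p ^ (2 * s) := by
    have := index_le_of_factor U hab (pow_pos h.cd.hp.pos s) (fun x => by rw [hU]; exact Subgroup.subset_closure ⟨x, rfl⟩)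
    rwa [← pow_mul, mul_comm] at this
  have hUCe : U = C := by
    apply Subgroup.eq_of_le_of_card_ge hUC
    have h3 := Subgroup.card_mul_index U
    have h4 := Subgroup.card_mul_index C
    rw [hCi, ← h3] at h4
    have h5 : Nat.card C * p ^ (2 * s) ≤ Nat.card U * p ^ (2 * s) := by
      rw [h4]; exact Nat.mul_le_mul_left _ hUi
    exact Nat.le_of_mul_le_mul_right h5 (pow_pos h.cd.hp.pos _)
  rw [← hU, hUCe, hC]

/-- counting elements with given class size -/
theorem count_class (h : TwoGen p G) {n : ℕ} (hn : Nat.card (commutator G) = p ^ n) {i : ℕ} (hi : 1 ≤ i) (hin : i ≤ n) :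
    Nat.card {g : G // (Subgroup.centralizer ({g} : Set G)).index = p ^ i} =
      Nat.card (Subgroup.center G) * (p ^ (2 * i) - p ^ (2 * i - 2)) := by
  haveI : Fact p.Prime := ⟨h.cd.hp⟩
  obtain ⟨a, b, hab⟩ := h.gen ⊤
  have hZ := Subgroup.card_mul_index (Subgroup.center G)
  rw [CfsgLib.MetacB.center_index h.cd hab, hn] at hZ
  obtain ⟨C1, _, hC1, hC1i⟩ := exists_csub h.cd (h.gen ⊤) hn (s := n - i) (by omega)
  obtain ⟨C2, _, hC2, hC2i⟩ := exists_csub h.cd (h.gen ⊤) hn (s := n - i + 1) (by omega)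
  rw [show n - (n - i) = i by omega] at hC1
  rw [show n - (n - i + 1) = i - 1 by omega] at hC2
  have hc1 : Nat.card C1 = Nat.card (Subgroup.center G) * p ^ (2 * i) := by
    have h1 := Subgroup.card_mul_index C1
    rw [hC1i, ← hZ, ← pow_mul, show n * 2 = 2 * i + 2 * (n - i) by omega, pow_add, ← mul_assoc] at h1
    exact Nat.eq_of_mul_eq_mul_right (pow_pos h.cd.hp.pos _) h1
  have hc2 : Nat.card C2 = Nat.card (Subgroup.center G) * p ^ (2 * i - 2) := by
    have h1 := Subgroup.card_mul_index C2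
    rw [hC2i, ← hZ, ← pow_mul, show n * 2 = (2 * i - 2) + 2 * (n - i + 1) by omega, pow_add, ← mul_assoc] at h1
    exact Nat.eq_of_mul_eq_mul_right (pow_pos h.cd.hp.pos _) h1
  rw [Nat.mul_sub, ← hc1, ← hc2]
  have hset : {g : G | (Subgroup.centralizer ({g} : Set G)).index = p ^ i} = (C1 : Set G) \ (C2 : Set G) := by
    ext g
    rw [Set.mem_setOf_eq, Set.mem_sdiff, SetLike.mem_coe, SetLike.mem_coe, hC1, hC2]
    obtain ⟨k, hk⟩ := index_eq_pow h.cd.pgroup (Subgroup.centralizer ({g} : Set G))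
    rw [hk, Nat.pow_le_pow_iff_right h.cd.hp.one_lt, Nat.pow_le_pow_iff_right h.cd.hp.one_lt]
    constructor
    · intro h1
      have := Nat.pow_right_injective h.cd.hp.two_le h1
      omega
    · rintro ⟨h1, h2⟩
      congr 1
      omega
  have hsub : (C2 : Set G) ⊆ (C1 : Set G) := by
    intro g hg
    rw [SetLike.mem_coe, hC2] at hg
    rw [SetLike.mem_coe, hC1]
    exact hg.trans (Nat.pow_le_pow_right h.cd.hp.pos (by omega))
  have h1 := Set.ncard_sdiff hsub
  rw [← hset] at h1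
  exact h1

/-- membership in the Frattini subgroup -/
theorem mem_frattini_iff' (h : TwoGen p G) {n : ℕ} (hn : Nat.card (commutator G) = p ^ n) (hn0 : 1 ≤ n) (g : G) :
    g ∈ frattini G ↔ (Subgroup.centralizer ({g} : Set G)).index ≤ p ^ (n - 1) := by
  obtain ⟨C, hCn, hC, hCi⟩ := exists_csub h.cd (h.gen ⊤) hn hn0
  obtain ⟨a, b, hab⟩ := h.gen ⊤
  have hpC : ∀ x : G, x ^ p ∈ C := by
    intro x
    rw [hC, h.cd.index_le_iff]
    intro y
    have h1 := zpowers_pow_of_eq (h.cd.zpowers_pow_left x y) (p ^ (n - 1))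
    rw [eq_one_iff_of_zpowers_eq h1, ← pow_mul, ← pow_succ', show n - 1 + 1 = n by omega]
    have h2 : orderOf (⟨⁅x, y⁆, h.cd.comm_mem x y⟩ : commutator G) ∣ p ^ n := by rw [← hn]; exact orderOf_dvd_natCard _
    rw [orderOf_dvd_iff_pow_eq_one] at h2
    exact congrArg Subtype.val h2
  have hcC : commutator G ≤ C := by
    intro c hc
    rw [hC, h.cd.index_le_iff]
    intro y
    have h1 := comm_mem_zpowers_pow h.cd hc y
    obtain ⟨k, hk⟩ := Subgroup.mem_zpowers_iff.1 h1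
    have h2 : orderOf (⟨c, hc⟩ : commutator G) ∣ p ^ n := by rw [← hn]; exact orderOf_dvd_natCard _
    rw [orderOf_dvd_iff_pow_eq_one] at h2
    have h3 : c ^ p ^ n = 1 := congrArg Subtype.val h2
    rw [← hk]
    have h4 : ((c ^ p) ^ k) ^ p ^ (n - 1) = (c ^ p ^ n) ^ k := by
      rw [← zpow_natCast ((c ^ p) ^ k), ← zpow_mul, mul_comm, zpow_mul, zpow_natCast, ← pow_mul, ← pow_succ',
        show n - 1 + 1 = n by omega]
    rw [h4, h3, one_zpow]
  haveI := hCn
  have hle : frattini G ≤ C := CfsgLib.SolvFrat.frattini_le_of_elementary h.cd.hp C hcC hpC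
  have hfi : (frattini G).index ≤ p ^ 2 :=
    index_le_of_pow _ hab h.cd.hp.pos (fun x => CfsgLib.SolvFrat.pow_mem_frattini h.cd.hp h.cd.pgroup x)
      (CfsgLib.SolvFrat.commutator_le_frattini h.cd.hp h.cd.pgroup)
  have he : frattini G = C := by
    apply Subgroup.eq_of_le_of_card_ge hle
    have h3 := Subgroup.card_mul_index (frattini G)
    have h4 := Subgroup.card_mul_index C
    rw [hCi, ← h3] at h4
    have h5 : Nat.card C * p ^ (2 * 1) ≤ Nat.card (frattini G) * p ^ (2 * 1) := by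
      rw [h4]; exact Nat.mul_le_mul_left _ hfi
    exact Nat.le_of_mul_le_mul_right h5 (pow_pos h.cd.hp.pos _)
  rw [he, hC]

end CfsgLib.MetacD
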