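import Cfsg.Agent.EqBase
import Mathlib
import Cfsg.Agent.LibMetacD

set_option autoImplicit false
set_option linter.style.haveILetI false

/-!
Duality of centralisers in `p`-groups with cyclic derived subgroup.
-/

namespace CfsgLib.MetacE

open CfsgLib.MetacA CfsgLib.MetacB CfsgLib.MetacC CfsgLib.SolvBasic
open scoped commutatorElement Pointwise

universe u

variable {G : Type u} [Group G] [Finite G] {p : ℕ}

/-- one step -/
theorem card_centralizer_le (h : CycDer p G) {R M : Subgroup G} (hRM : R ≤ M) (hidx : R.relIndex M = p) :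
    Nat.card (Subgroup.centralizer (R : Set G)) ≤ Nat.card (Subgroup.centralizer (M : Set G)) * p := by
  haveI : Fact p.Prime := ⟨h.hp⟩
  haveI : Group.IsNilpotent M := (h.pgroup.to_subgroup M).isNilpotent
  have hRc : IsCoatom (R.subgroupOf M) := by
    refine ⟨?_, ?_⟩
    · intro he
      rw [Subgroup.relIndex, he, Subgroup.index_top] at hidx
      exact h.hp.one_lt.ne hidx
    · intro K hK
      have h1 := Subgroup.relIndex_mul_index hK.le
      have hidx' : (R.subgroupOf M).index = p := hidx
      rw [hidx'] at h1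
      rcases (Nat.dvd_prime h.hp).1 (Dvd.intro_left _ h1) with h2 | h2
      · exact Subgroup.index_eq_one.1 h2
      · rw [h2] at h1
        have h3 : (R.subgroupOf M).relIndex K = 1 := Nat.eq_of_mul_eq_mul_right h.hp.pos (by rw [h1, one_mul])
        rw [Subgroup.relIndex_eq_one] at h3
        exact absurd h3 (not_le_of_gt hK)
  haveI hRn : (R.subgroupOf M).Normal := CfsgLib.SolvFrat.normal_of_isCoatom hRc
  obtain ⟨m, hmM, hmR⟩ : ∃ m ∈ M, m ∉ R := by
    by_contra hno
    push Not at hno
    have : R = M := le_antisymm hRM hno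
    rw [this, Subgroup.relIndex_self] at hidx
    exact h.hp.one_lt.ne hidx
  have hmp : m ^ p ∈ R := by
    have := CfsgLib.SolvFrat.pow_mem_of_index_prime h.hp (M := R.subgroupOf M) hidx ⟨m, hmM⟩
    rwa [Subgroup.mem_subgroupOf] at this
  have hCM : Subgroup.centralizer (M : Set G) = Subgroup.centralizer ({m} : Set G) ⊓ Subgroup.centralizer (R : Set G) := by
    apply le_antisymm
    · refine le_inf ?_ (Subgroup.centralizer_le hRM)
      apply Subgroup.centralizer_le
      intro x hx
      rw [Set.mem_singleton_iff] at hx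
      rw [hx]; exact hmM
    · intro x hx
      obtain ⟨h1, h2⟩ := Subgroup.mem_inf.1 hx
      -- centraliser of x in M contains R and m
      have h3 : R.subgroupOf M < (Subgroup.centralizer ({x} : Set G)).subgroupOf M := by
        refine lt_of_le_of_ne ?_ ?_
        · intro y hy
          rw [Subgroup.mem_subgroupOf] at hy ⊢
          rw [Subgroup.mem_centralizer_singleton_iff]
          exact Subgroup.mem_centralizer_iff.1 h2 y hy
        · intro he
          apply hmR
          have : (⟨m, hmM⟩ : M) ∈ R.subgroupOf M := by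
            rw [he, Subgroup.mem_subgroupOf, Subgroup.mem_centralizer_singleton_iff]
            exact (Subgroup.mem_centralizer_singleton_iff.1 h1).symm
          rwa [Subgroup.mem_subgroupOf] at this
      have h4 := hRc.2 _ h3
      rw [Subgroup.mem_centralizer_iff]
      intro y hy
      have : (⟨y, hy⟩ : M) ∈ (Subgroup.centralizer ({x} : Set G)).subgroupOf M := by rw [h4]; trivial
      rw [Subgroup.mem_subgroupOf, Subgroup.mem_centralizer_singleton_iff] at this
      exact this
  -- relative index of `C(m)` in `C(R)` is at most p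
  have hrel : (Subgroup.centralizer ({m} : Set G)).relIndex (Subgroup.centralizer (R : Set G)) ≤ p := by
    obtain ⟨T, hT, hTc⟩ := exists_torsion h.cyc h.hp.pos
    have h1 : ∀ x ∈ Subgroup.centralizer (R : Set G), ⁅m, x⁆ ∈ T := by
      intro x hx
      rw [hT]
      refine ⟨h.comm_mem m x, ?_⟩
      have h2 := h.comm_pow_eq_one_iff m x 1
      rw [pow_one] at h2
      rw [← h2, commutatorElement_eq_one_iff_mul_comm]
      exact Subgroup.mem_centralizer_iff.1 hx _ hmp
    let f : (Subgroup.centralizer (R : Set G)) ⧸ (Subgroup.centralizer ({m} : Set G)).subgroupOf (Subgroup.centralizer (R : Set G)) → T :=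
      fun q => ⟨⁅m, (q.out : G)⁆, h1 _ q.out.2⟩
    have hf : Function.Injective f := by
      intro q q' hq
      have h2 : ⁅m, (q.out : G)⁆ = ⁅m, (q'.out : G)⁆ := congrArg Subtype.val hq
      rw [← Quotient.out_eq' q, ← Quotient.out_eq' q', Quotient.eq'', QuotientGroup.leftRel_apply,
        Subgroup.mem_subgroupOf, Subgroup.mem_centralizer_singleton_iff]
      change ((q.out : G))⁻¹ * q'.out * m = m * (((q.out : G))⁻¹ * q'.out)
      rw [commutatorElement_def, commutatorElement_def] at h2
      have h3 : (q.out : G) * m⁻¹ * (q.out : G)⁻¹ = (q'.out : G) * m⁻¹ * (q'.out : G)⁻¹ := by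
        calc (q.out : G) * m⁻¹ * (q.out : G)⁻¹ = m⁻¹ * (m * (q.out : G) * m⁻¹ * (q.out : G)⁻¹) := by group
          _ = m⁻¹ * (m * (q'.out : G) * m⁻¹ * (q'.out : G)⁻¹) := by rw [h2]
          _ = _ := by group
      have h4 : (q.out : G) * m * (q.out : G)⁻¹ = (q'.out : G) * m * (q'.out : G)⁻¹ := by
        have := congrArg Inv.inv h3
        simpa [mul_assoc] using this
      calc (q.out : G)⁻¹ * q'.out * m = (q.out : G)⁻¹ * ((q'.out : G) * m * (q'.out : G)⁻¹) * q'.out := by group
        _ = (q.out : G)⁻¹ * ((q.out : G) * m * (q.out : G)⁻¹) * q'.out := by rw [h4]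
        _ = m * ((q.out : G)⁻¹ * q'.out) := by group
    exact (Nat.card_le_card_of_injective f hf).trans hTc
  have h5 := Subgroup.card_mul_index ((Subgroup.centralizer (M : Set G)).subgroupOf (Subgroup.centralizer (R : Set G)))
  have h6 : (Subgroup.centralizer (M : Set G)).relIndex (Subgroup.centralizer (R : Set G)) =
      (Subgroup.centralizer ({m} : Set G)).relIndex (Subgroup.centralizer (R : Set G)) := by
    rw [hCM, Subgroup.inf_relIndex_right]
  have h7 : ((Subgroup.centralizer (M : Set G)).subgroupOf (Subgroup.centralizer (R : Set G))).index ≤ p := by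
    change (Subgroup.centralizer (M : Set G)).relIndex (Subgroup.centralizer (R : Set G)) ≤ p
    rw [h6]; exact hrel
  rw [card_subgroupOf (Subgroup.centralizer_le hRM)] at h5
  rw [← h5]
  exact Nat.mul_le_mul_left _ h7

/-- E2 -/
theorem card_mul_le (h : CycDer p G) (d : ℕ) : ∀ R M : Subgroup G, R ≤ M → Nat.card M = Nat.card R * p ^ d →
    Nat.card R * Nat.card (Subgroup.centralizer (R : Set G)) ≤ Nat.card M * Nat.card (Subgroup.centralizer (M : Set G)) := by
  haveI : Fact p.Prime := ⟨h.hp⟩
  induction d with
  | zero =>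
    intro R M hRM hc
    rw [pow_zero, mul_one] at hc
    have : R = M := Subgroup.eq_of_le_of_card_ge hRM hc.le
    rw [this]
  | succ d ih =>
    intro R M hRM hc
    obtain ⟨j, hj⟩ := IsPGroup.iff_card.1 (h.pgroup.to_subgroup R)
    -- a subgroup between R and M
    have hR' : Nat.card (R.subgroupOf M) = p ^ j := by rw [card_subgroupOf hRM, hj]
    obtain ⟨K, hK, hRK⟩ := Sylow.exists_subgroup_card_pow_succ (G := M) (n := j) (by
      rw [hc, hj, ← pow_add]; exact Nat.pow_dvd_pow p (by omega)) hR'
    have hRK' : R ≤ K.map M.subtype := by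
      intro x hx
      exact ⟨⟨x, hRM hx⟩, hRK (by rw [Subgroup.mem_subgroupOf]; exact hx), rfl⟩
    have hKM : K.map M.subtype ≤ M := Subgroup.map_subtype_le K
    have hKc : Nat.card (K.map M.subtype) = p ^ (j + 1) := by
      rw [← hK]
      exact (Nat.card_congr (Subgroup.equivMapOfInjective _ _ (Subgroup.subtype_injective M)).toEquiv).symm
    have h1 := ih (K.map M.subtype) M hKM (by rw [hc, hKc, hj, ← pow_add, ← pow_add]; congr 1; ring)
    refine le_trans ?_ h1
    have hidx : R.relIndex (K.map M.subtype) = p := by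
      have h2 := CfsgLib.SolvHall.card_eq_card_mul_relIndex hRK'
      rw [hKc, hj, pow_succ] at h2
      exact Nat.eq_of_mul_eq_mul_left (pow_pos h.hp.pos _) h2
    have h3 := card_centralizer_le h hRK' hidx
    calc Nat.card R * Nat.card (Subgroup.centralizer (R : Set G))
        ≤ Nat.card R * (Nat.card (Subgroup.centralizer ((K.map M.subtype : Subgroup G) : Set G)) * p) := Nat.mul_le_mul_left _ h3
      _ = Nat.card (K.map M.subtype) * Nat.card (Subgroup.centralizer ((K.map M.subtype : Subgroup G) : Set G)) := by
        rw [hKc, hj, pow_succ]; ring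

theorem card_mul_le' (h : CycDer p G) {R M : Subgroup G} (hRM : R ≤ M) :
    Nat.card R * Nat.card (Subgroup.centralizer (R : Set G)) ≤ Nat.card M * Nat.card (Subgroup.centralizer (M : Set G)) := by
  haveI : Fact p.Prime := ⟨h.hp⟩
  obtain ⟨j, hj⟩ := IsPGroup.iff_card.1 (h.pgroup.to_subgroup R)
  obtain ⟨k, hk⟩ := IsPGroup.iff_card.1 (h.pgroup.to_subgroup M)
  have hjk : j ≤ k := by
    have := Subgroup.card_dvd_of_le hRM
    rw [hj, hk] at this
    exact (Nat.pow_dvd_pow_iff_le_right h.hp.one_lt).1 this
  exact card_mul_le h (k - j) R M hRM (by rw [hj, hk, ← pow_add]; congr 1; omega)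

theorem centralizer_top' : Subgroup.centralizer ((⊤ : Subgroup G) : Set G) = Subgroup.center G := by
  rw [Subgroup.coe_top, Subgroup.centralizer_univ]

theorem centralizer_center' : Subgroup.centralizer ((Subgroup.center G : Subgroup G) : Set G) = ⊤ := by
  rw [eq_top_iff]
  intro x _
  rw [Subgroup.mem_centralizer_iff]
  intro z hz
  exact (Subgroup.mem_center_iff.1 hz x).symm

/-- duality -/
theorem card_mul_eq (h : CycDer p G) {R : Subgroup G} (hR : Subgroup.center G ≤ R) :
    Nat.card R * Nat.card (Subgroup.centralizer (R : Set G)) = Nat.card G * Nat.card (Subgroup.center G) := by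
  apply le_antisymm
  · have h1 := card_mul_le' h (le_top : R ≤ ⊤)
    rw [centralizer_top', Subgroup.card_top] at h1
    exact h1
  · have h1 := card_mul_le' h hR
    rw [centralizer_center', Subgroup.card_top, mul_comm] at h1
    exact h1

theorem card_mul_lt (h : CycDer p G) {R : Subgroup G} (hR : ¬ Subgroup.center G ≤ R) :
    Nat.card R * Nat.card (Subgroup.centralizer (R : Set G)) < Nat.card G * Nat.card (Subgroup.center G) := by
  have h1 := card_mul_eq h (R := R ⊔ Subgroup.center G) le_sup_right
  have h2 : Subgroup.centralizer ((R ⊔ Subgroup.center G : Subgroup G) : Set G) = Subgroup.centralizer (R : Set G) := by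
    apply le_antisymm (Subgroup.centralizer_le (le_sup_left : R ≤ R ⊔ Subgroup.center G))
    rw [← Subgroup.le_centralizer_iff]
    refine sup_le ?_ ?_
    · rw [Subgroup.le_centralizer_iff]
    · exact Subgroup.center_le_centralizer _
  rw [h2] at h1
  rw [← h1]
  have h3 : R < R ⊔ Subgroup.center G := by
    refine lt_of_le_of_ne le_sup_left ?_
    intro he
    apply hR
    rw [he]; exact le_sup_right
  exact Nat.mul_lt_mul_of_pos_right (card_lt_of_lt h3) Nat.card_pos

end CfsgLib.MetacE
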