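import Mathlib
set_option autoImplicit false
namespace CfsgLib.MgH14
open MulAction Finset
open scoped Pointwise

section
variable (G : Type*) {Ω : Type*} [Group G] [MulAction G Ω] [Fintype Ω] [DecidableEq Ω]

/-- `D` is a Jordan complement -/
def JC (D : Finset Ω) : Prop := ∀ x y, x ∉ D → y ∉ D → ∃ g : G, (∀ d ∈ D, g • d = d) ∧ g • x = y

/-- two-transitivity -/
def T2 (G Ω : Type*) [Group G] [MulAction G Ω] : Prop :=
  ∀ a b c d : Ω, a ≠ b → c ≠ d → ∃ g : G, g • a = c ∧ g • b = d

variable {G}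

omit [Fintype Ω] in
theorem JC.smul {D : Finset Ω} (h : JC G D) (g : G) : JC G (g • D) := by
  intro x y hx hy
  obtain ⟨k, hk1, hk2⟩ := h (g⁻¹ • x) (g⁻¹ • y) (by rwa [← Finset.smul_mem_smul_finset_iff g, smul_inv_smul])
    (by rwa [← Finset.smul_mem_smul_finset_iff g, smul_inv_smul])
  refine ⟨g * k * g⁻¹, ?_, ?_⟩
  · intro d hd
    obtain ⟨e, he, rfl⟩ := Finset.mem_smul_finset.1 hd
    rw [mul_smul, mul_smul, inv_smul_smul, hk1 e he]
  · rw [mul_smul, mul_smul, hk2, smul_inv_smul]

omit [Fintype Ω] in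
theorem JC.inter {D E : Finset Ω} (hD : JC G D) (hE : JC G E) {w : Ω} (hwD : w ∉ D) (hwE : w ∉ E) : JC G (D ∩ E) := by
  have key : ∀ x, x ∉ D ∩ E → ∃ g : G, (∀ d ∈ D ∩ E, g • d = d) ∧ g • x = w := by
    intro x hx
    rw [mem_inter, not_and_or] at hx
    rcases hx with h | h
    · obtain ⟨g, h1, h2⟩ := hD x w h hwD
      exact ⟨g, fun d hd => h1 d (mem_inter.1 hd).1, h2⟩
    · obtain ⟨g, h1, h2⟩ := hE x w h hwE
      exact ⟨g, fun d hd => h1 d (mem_inter.1 hd).2, h2⟩
  intro x y hx hy
  obtain ⟨g, h1, h2⟩ := key x hx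
  obtain ⟨k, h3, h4⟩ := key y hy
  refine ⟨k⁻¹ * g, ?_, ?_⟩
  · intro d hd
    rw [mul_smul, h1 d hd, inv_smul_eq_iff, h3 d hd]
  · rw [mul_smul, h2, inv_smul_eq_iff, h4]

theorem exists_out {D E : Finset Ω} (h : (D ∪ E).card < Fintype.card Ω) : ∃ w, w ∉ D ∧ w ∉ E := by
  obtain ⟨w, -, hw⟩ := Finset.exists_mem_notMem_of_card_lt_card (s := D ∪ E) (t := Finset.univ) (by rw [Finset.card_univ]; exact h)
  rw [mem_union, not_or] at hw
  exact ⟨w, hw⟩

theorem exists_out1 {D : Finset Ω} (h : D.card < Fintype.card Ω) : ∃ w, w ∉ D := by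
  obtain ⟨w, hw, -⟩ := exists_out (D := D) (E := D) (by rwa [union_self])
  exact ⟨w, hw⟩

theorem JC.inter' {D E : Finset Ω} (hD : JC G D) (hE : JC G E) (h : (D ∪ E).card < Fintype.card Ω) : JC G (D ∩ E) := by
  obtain ⟨w, h1, h2⟩ := exists_out h
  exact hD.inter hE h1 h2

theorem exists_two_out {D : Finset Ω} (h : D.card + 2 ≤ Fintype.card Ω) : ∃ a b, a ≠ b ∧ a ∉ D ∧ b ∉ D := by
  have h1 : 1 < Dᶜ.card := by rw [Finset.card_compl]; omega
  obtain ⟨a, ha, b, hb, hab⟩ := Finset.one_lt_card.1 h1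
  exact ⟨a, b, hab, Finset.mem_compl.1 ha, Finset.mem_compl.1 hb⟩

/-- move a set off itself a bit -/
theorem T2.move (h2 : T2 G Ω) {F : Finset Ω} (hF : F.card + 2 ≤ Fintype.card Ω) (hne : F.Nonempty) :
    ∃ g : G, (∃ w, w ∉ F ∧ w ∉ g • F) ∧ g • F ≠ F := by
  obtain ⟨a, b, hab, ha, hb⟩ := exists_two_out hF
  obtain ⟨f, hf⟩ := hne
  obtain ⟨g, hg1, hg2⟩ := h2 a b a f hab (fun h => ha (h ▸ hf))
  refine ⟨g, ⟨a, ha, ?_⟩, ?_⟩
  · intro h
    rw [← hg1, Finset.smul_mem_smul_finset_iff] at h
    exact ha h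
  · intro h
    rw [← h, ← hg2, Finset.smul_mem_smul_finset_iff] at hf
    exact hb hf

/-- Step 2: pairs are Jordan complements -/
theorem step2 (h2 : T2 G Ω) {D : Finset Ω} (hD : JC G D) (hD1 : Fintype.card Ω < 2 * D.card) (hD2 : D.card + 2 ≤ Fintype.card Ω) :
    ∀ a b : Ω, a ≠ b → JC G ({a, b} : Finset Ω) := by
  classical
  -- minimal Jordan complement with at least two points
  obtain ⟨F, hFm⟩ := Set.Finite.exists_minimalFor (fun F : Finset Ω => F.card) {F : Finset Ω | JC G F ∧ 2 ≤ F.card} (Set.toFinite _)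
    ⟨D, hD, by omega⟩
  obtain ⟨hFJ, hF2⟩ := hFm.prop
  have hFmin : ∀ E : Finset Ω, JC G E → 2 ≤ E.card → F.card ≤ E.card := fun E hE hE2 => by
    by_contra hcon
    push Not at hcon
    have := hFm.le_of_le ⟨hE, hE2⟩ hcon.le
    exact absurd this (by simpa using hcon)
  have hFD : F.card ≤ D.card := hFmin D hD (by omega)
  -- (i)
  have hFn : 2 * F.card ≤ Fintype.card Ω + 1 := by
    by_contra hcon
    push Not at hcon
    obtain ⟨g, ⟨w, hw1, hw2⟩, hg⟩ := h2.move (F := F) (by omega) (Finset.card_pos.1 (by omega))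
    have h3 := hFJ.inter (hFJ.smul g) hw1 hw2
    have h4 := Finset.card_union_add_card_inter F (g • F)
    have h5 : (F ∪ g • F).card ≤ Fintype.card Ω := Finset.card_le_univ _
    rw [Finset.card_smul_finset] at h4
    have h6 := hFmin _ h3 (by omega)
    have h7 : F ∩ g • F = F := Finset.eq_of_subset_of_card_le Finset.inter_subset_left h6
    have h8 : F ⊆ g • F := Finset.inter_eq_left.1 h7
    exact hg (Finset.eq_of_subset_of_card_le h8 (by rw [Finset.card_smul_finset])).symm
  -- (ii)
  have hline : ∀ g g' : G, 2 ≤ (g • F ∩ g' • F).card → g • F = g' • F := by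
    intro g g' hgg
    have h4 := Finset.card_union_add_card_inter (g • F) (g' • F)
    rw [Finset.card_smul_finset, Finset.card_smul_finset] at h4
    have h3 := (hFJ.smul g).inter' (hFJ.smul g') (by omega)
    have h6 := hFmin _ h3 hgg
    have h7 : g • F ∩ g' • F = g • F := Finset.eq_of_subset_of_card_le Finset.inter_subset_left (by rw [Finset.card_smul_finset]; exact h6)
    have h8 : g • F ⊆ g' • F := Finset.inter_eq_left.1 h7
    exact Finset.eq_of_subset_of_card_le h8 (by rw [Finset.card_smul_finset, Finset.card_smul_finset])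
  -- (iii)
  have hthru : ∀ a b : Ω, a ≠ b → ∃ g : G, a ∈ g • F ∧ b ∈ g • F := by
    intro a b hab
    obtain ⟨u, hu, v, hv, huv⟩ := Finset.one_lt_card.1 (show 1 < F.card by omega)
    obtain ⟨g, hg1, hg2⟩ := h2 u v a b huv hab
    exact ⟨g, by rw [← hg1, Finset.smul_mem_smul_finset_iff]; exact hu, by rw [← hg2, Finset.smul_mem_smul_finset_iff]; exact hv⟩
  by_cases hF3 : F.card = 2
  · intro a b hab
    obtain ⟨g, hga, hgb⟩ := hthru a b hab
    have h3 : ({a, b} : Finset Ω) = g • F := by
      apply Finset.eq_of_subset_of_card_le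
      · intro x hx
        rw [mem_insert, mem_singleton] at hx
        rcases hx with rfl | rfl
        · exact hga
        · exact hgb
      · rw [Finset.card_smul_finset, hF3, Finset.card_pair hab]
    rw [h3]
    exact hFJ.smul g
  exfalso
  have hF3' : 3 ≤ F.card := by omega
  -- (iv)
  have h4 : ∀ g : G, 2 ≤ (g • F ∩ D).card → g • F ⊆ D ∨ Dᶜ ⊆ g • F := by
    intro g hg
    by_cases hu : (g • F ∪ D).card < Fintype.card Ω
    · left
      have h3 := (hFJ.smul g).inter' hD hu
      have h6 := hFmin _ h3 hg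
      have h7 : g • F ∩ D = g • F := Finset.eq_of_subset_of_card_le Finset.inter_subset_left (by rw [Finset.card_smul_finset]; exact h6)
      exact Finset.inter_eq_left.1 h7
    · right
      have h8 : g • F ∪ D = Finset.univ := by
        apply Finset.eq_univ_of_card
        exact le_antisymm (Finset.card_le_univ _) (not_lt.1 hu)
      intro x hx
      have h9 : x ∈ g • F ∪ D := by rw [h8]; exact Finset.mem_univ x
      rw [Finset.mem_compl] at hx
      exact (Finset.mem_union.1 h9).resolve_right hx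
  obtain ⟨P, P', hPP, hP, hP'⟩ := exists_two_out hD2
  -- a line through a point outside of D has at most one point in D, first for most lines
  have hsplit : ∀ g : G, (g • F ∩ D).card + (g • F ∩ Dᶜ).card = F.card := by
    intro g
    rw [← Finset.card_smul_finset g F, ← Finset.card_union_of_disjoint, ← Finset.inter_union_distrib_left, Finset.union_compl, Finset.inter_univ]
    exact Disjoint.mono Finset.inter_subset_right Finset.inter_subset_right disjoint_compl_right
  have h5 : ∀ g : G, 2 ≤ (g • F ∩ D).card → g • F ⊆ D := by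
    intro g hg
    rcases h4 g hg with h | h
    · exact h
    · exfalso
      obtain ⟨Q, hQ⟩ := exists_out1 (D := g • F) (by rw [Finset.card_smul_finset]; omega)
      have hPg : P ∈ g • F := h (Finset.mem_compl.2 hP)
      have hP'g : P' ∈ g • F := h (Finset.mem_compl.2 hP')
      obtain ⟨g', hg'P, hg'Q⟩ := hthru P Q (fun hPQ => hQ (hPQ ▸ hPg))
      have hne : g • F ≠ g' • F := fun he => hQ (he ▸ hg'Q)
      have h6 : (g' • F ∩ Dᶜ).card ≤ 1 := by
        rw [Finset.card_le_one]
        intro x hx y hy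
        by_contra hxy
        rw [Finset.mem_inter] at hx hy
        apply hne
        apply hline
        exact Finset.one_lt_card.2 ⟨x, Finset.mem_inter.2 ⟨h hx.2, hx.1⟩, y, Finset.mem_inter.2 ⟨h hy.2, hy.1⟩, hxy⟩
      have h7 := hsplit g'
      rcases h4 g' (by omega) with h8 | h8
      · exact hP (h8 hg'P)
      · apply hne
        apply hline
        exact Finset.one_lt_card.2 ⟨P, Finset.mem_inter.2 ⟨hPg, hg'P⟩, P', Finset.mem_inter.2 ⟨hP'g, h8 (Finset.mem_compl.2 hP')⟩, hPP⟩
  -- injection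
  have h6 : ∀ d ∈ D, ∃ g : G, ∃ Q, P ∈ g • F ∧ d ∈ g • F ∧ Q ∈ g • F ∧ Q ≠ P ∧ Q ∉ D ∧ (g • F ∩ D).card ≤ 1 := by
    intro d hd
    obtain ⟨g, hgP, hgd⟩ := hthru P d (fun h => hP (h ▸ hd))
    have h7 : (g • F ∩ D).card ≤ 1 := by
      by_contra hcon
      exact hP (h5 g (by omega) hgP)
    have h8 := hsplit g
    obtain ⟨Q, hQ, hQP⟩ := Finset.exists_mem_ne (s := g • F ∩ Dᶜ) (by omega) P
    rw [Finset.mem_inter, Finset.mem_compl] at hQ
    exact ⟨g, Q, hgP, hgd, hQ.1, hQP, hQ.2, h7⟩
  choose! γ Q hQ using h6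
  have h7 : D.card ≤ (Dᶜ.erase P).card := by
    apply Finset.card_le_card_of_injOn Q
    · intro d hd
      have := hQ d hd
      rw [Finset.mem_coe, Finset.mem_erase, Finset.mem_compl]
      exact ⟨this.2.2.2.1, this.2.2.2.2.1⟩
    · intro d hd e he hde
      have h8 := hQ d hd
      have h9 := hQ e he
      have h10 : γ d • F = γ e • F := by
        apply hline
        have hQe : Q d ∈ γ e • F := by rw [hde]; exact h9.2.2.1
        exact Finset.one_lt_card.2 ⟨P, Finset.mem_inter.2 ⟨h8.1, h9.1⟩, Q d, Finset.mem_inter.2 ⟨h8.2.2.1, hQe⟩, h8.2.2.2.1.symm⟩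
      have h11 := Finset.card_le_one.1 h8.2.2.2.2.2
      exact h11 d (Finset.mem_inter.2 ⟨h8.2.1, hd⟩) e (Finset.mem_inter.2 ⟨by rw [h10]; exact h9.2.1, he⟩)
  rw [Finset.card_erase_of_mem (Finset.mem_compl.2 hP), Finset.card_compl] at h7
  omega

/-- Step 3 -/
theorem conjL {D : Finset Ω} (hD : JC G D) : ∀ (k : ℕ) (F : Finset Ω), D.card - F.card = k → JC G F → F ⊆ D →
    Fintype.card Ω < F.card + 2 * (Fintype.card Ω - D.card) → ∀ g : G, F ⊆ g • D →
    ∃ t : G, (∀ f ∈ F, t • f = f) ∧ t • (g • D) = D := by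
  intro k
  induction k using Nat.strong_induction_on with
  | _ k ih =>
    intro F hk hF hFD hn g hFg
    by_cases hc : F.card = D.card
    · have h1 : F = D := Finset.eq_of_subset_of_card_le hFD hc.ge
      have h2 : D = g • D := Finset.eq_of_subset_of_card_le (h1 ▸ hFg) (by rw [Finset.card_smul_finset])
      exact ⟨1, fun f _ => one_smul _ _, by rw [one_smul, ← h2]⟩
    · have hlt : F.card < D.card := lt_of_le_of_ne (Finset.card_le_card hFD) hc
      obtain ⟨α, hα1, hα2⟩ := Finset.exists_mem_notMem_of_card_lt_card (s := F) (t := g • D) (by rw [Finset.card_smul_finset]; exact hlt)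
      obtain ⟨β, hβ1, hβ2⟩ := Finset.exists_mem_notMem_of_card_lt_card hlt
      obtain ⟨h, hh1, hh2⟩ := hF α β hα2 hβ2
      have hDn : D.card ≤ Fintype.card Ω := Finset.card_le_univ _
      have hsub : insert β F ⊆ (h * g) • D ∩ D := by
        intro x hx
        rw [mem_insert] at hx
        rw [mem_inter, mul_smul]
        rcases hx with rfl | hx
        · exact ⟨by rw [← hh2, Finset.smul_mem_smul_finset_iff]; exact hα1, hβ1⟩
        · refine ⟨?_, hFD hx⟩
          rw [← hh1 x hx, Finset.smul_mem_smul_finset_iff]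
          exact hFg hx
      have hc1 := Finset.card_le_card hsub
      rw [Finset.card_insert_of_notMem hβ2] at hc1
      have hc2 := Finset.card_union_add_card_inter ((h * g) • D) D
      rw [Finset.card_smul_finset] at hc2
      have hc3 : ((h * g) • D ∩ D).card ≤ D.card := Finset.card_le_card Finset.inter_subset_right
      have hJ := (hD.smul (h * g)).inter' hD (by omega)
      obtain ⟨t, ht1, ht2⟩ := ih (D.card - ((h * g) • D ∩ D).card) (by omega) ((h * g) • D ∩ D) rfl hJ Finset.inter_subset_right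
        (by omega) (h * g) Finset.inter_subset_left
      refine ⟨t * h, ?_, ?_⟩
      · intro f hf
        rw [mul_smul, hh1 f hf]
        exact ht1 f (hsub (mem_insert_of_mem hf))
      · rw [mul_smul, ← mul_smul h g D, ht2]

/-- Step 4 -/
theorem step4 (h2 : T2 G Ω) {D : Finset Ω} (hD : JC G D) (hDn : D.card < Fintype.card Ω)
    (hJ2 : ∀ a b : Ω, a ≠ b → JC G ({a, b} : Finset Ω)) {a1 a2 b1 b2 : Ω} (ha : a1 ≠ a2) (hb : b1 ≠ b2)
    (ha1 : a1 ∈ D) (ha2 : a2 ∈ D) (hb1 : b1 ∈ D) (hb2 : b2 ∈ D) : ∃ g : G, g • D = D ∧ g • a1 = b1 ∧ g • a2 = b2 := by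
  obtain ⟨g, hg1, hg2⟩ := h2 a1 a2 b1 b2 ha hb
  have hb1' : b1 ∈ g • D := by rw [← hg1, Finset.smul_mem_smul_finset_iff]; exact ha1
  have hb2' : b2 ∈ g • D := by rw [← hg2, Finset.smul_mem_smul_finset_iff]; exact ha2
  obtain ⟨γ, hγ⟩ := exists_out1 hDn
  obtain ⟨γ', hγ'⟩ := exists_out1 (D := g • D) (by rw [Finset.card_smul_finset]; exact hDn)
  have hne : ∀ x : Ω, x ∉ D → x ∉ ({b1, b2} : Finset Ω) := by
    intro x hx hx2
    rw [mem_insert, mem_singleton] at hx2
    rcases hx2 with rfl | rfl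
    · exact hx hb1
    · exact hx hb2
  have hne' : ∀ x : Ω, x ∉ g • D → x ∉ ({b1, b2} : Finset Ω) := by
    intro x hx hx2
    rw [mem_insert, mem_singleton] at hx2
    rcases hx2 with rfl | rfl
    · exact hx hb1'
    · exact hx hb2'
  obtain ⟨h, hh1, hh2⟩ := hJ2 b1 b2 hb γ' γ (hne' _ hγ') (hne _ hγ)
  have hγ2 : γ ∉ (h * g) • D := by
    rw [mul_smul, ← hh2, Finset.smul_mem_smul_finset_iff]; exact hγ'
  have hJ := (hD.smul (h * g)).inter hD hγ2 hγ
  have hc2 := Finset.card_union_add_card_inter ((h * g) • D) D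
  rw [Finset.card_smul_finset] at hc2
  have hc3 : ((h * g) • D ∪ D).card < Fintype.card Ω := by
    rw [← Finset.card_univ]
    apply Finset.card_lt_card
    rw [Finset.ssubset_univ_iff]
    intro h
    have := Finset.mem_univ γ
    rw [← h, mem_union] at this
    rcases this with h3 | h3
    · exact hγ2 h3
    · exact hγ h3
  obtain ⟨t, ht1, ht2⟩ := conjL hD _ ((h * g) • D ∩ D) rfl hJ Finset.inter_subset_right (by omega) (h * g) Finset.inter_subset_left
  have hfix1 : h • b1 = b1 := hh1 b1 (by simp)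
  have hfix2 : h • b2 = b2 := hh1 b2 (by simp)
  refine ⟨t * (h * g), by rw [mul_smul, ht2], ?_, ?_⟩
  · rw [mul_smul, mul_smul, hg1, hfix1]
    apply ht1
    rw [mem_inter, mul_smul]
    have h9 : h • b1 ∈ h • g • D := (Finset.smul_mem_smul_finset_iff h).2 hb1'
    rw [hfix1] at h9
    exact ⟨h9, hb1⟩
  · rw [mul_smul, mul_smul, hg2, hfix2]
    apply ht1
    rw [mem_inter, mul_smul]
    have h9 : h • b2 ∈ h • g • D := (Finset.smul_mem_smul_finset_iff h).2 hb2'
    rw [hfix2] at h9
    exact ⟨h9, hb2⟩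

omit [Fintype Ω] in
/-- exchange -/
theorem all_s {D : Finset Ω} {s : ℕ} {D2 : Finset Ω} (hD2 : D2 ⊆ D) (hs : D2.card = s) (hJ : JC G D2)
    (hX : ∀ E : Finset Ω, E ⊆ D → E.card = s → ∀ u ∈ E, ∀ v ∈ D, v ∉ E → ∃ g : G, g • E = insert v (E.erase u)) :
    ∀ (k : ℕ) (E : Finset Ω), E ⊆ D → E.card = s → (E \ D2).card = k → JC G E := by
  intro k
  induction k with
  | zero =>
    intro E hE hEs hk
    rw [Finset.card_eq_zero, Finset.sdiff_eq_empty_iff_subset] at hk
    have : E = D2 := Finset.eq_of_subset_of_card_le hk (by rw [hs, hEs])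
    rw [this]; exact hJ
  | succ k ih =>
    intro E hE hEs hk
    obtain ⟨v, hv⟩ := Finset.card_pos.1 (show 0 < (E \ D2).card by omega)
    rw [mem_sdiff] at hv
    obtain ⟨u, hu1, hu2⟩ : ∃ u ∈ D2, u ∉ E := by
      by_contra hcon
      push Not at hcon
      have : D2 = E := Finset.eq_of_subset_of_card_le hcon (by rw [hs, hEs])
      exact hv.2 (this ▸ hv.1)
    have hu3 : u ∉ E.erase v := fun h => hu2 (Finset.mem_of_mem_erase h)
    have hE1c : (insert u (E.erase v)).card = s := by
      rw [Finset.card_insert_of_notMem hu3, Finset.card_erase_of_mem hv.1, hEs]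
      have : 0 < E.card := Finset.card_pos.2 ⟨v, hv.1⟩
      omega
    have hE1 : insert u (E.erase v) ⊆ D := by
      intro x hx
      rw [mem_insert] at hx
      rcases hx with rfl | hx
      · exact hD2 hu1
      · exact hE (Finset.mem_of_mem_erase hx)
    have hE1d : (insert u (E.erase v) \ D2).card = k := by
      have : insert u (E.erase v) \ D2 = (E \ D2).erase v := by
        ext x
        simp only [mem_sdiff, mem_insert, mem_erase]
        constructor
        · rintro ⟨rfl | ⟨h1, h2⟩, h3⟩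
          · exact absurd hu1 h3
          · exact ⟨h1, h2, h3⟩
        · rintro ⟨h1, h2, h3⟩
          exact ⟨Or.inr ⟨h1, h2⟩, h3⟩
      rw [this, Finset.card_erase_of_mem (mem_sdiff.2 hv), hk]; rfl
    have h1 := ih _ hE1 hE1c hE1d
    have hvne : v ∉ insert u (E.erase v) := by
      rw [mem_insert, not_or]
      exact ⟨fun h => hv.2 (h ▸ hu1), Finset.notMem_erase v E⟩
    obtain ⟨g, hg⟩ := hX _ hE1 hE1c u (mem_insert_self _ _) v (hE hv.1) hvne
    have h2 : insert v ((insert u (E.erase v)).erase u) = E := by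
      rw [Finset.erase_insert hu3, Finset.insert_erase hv.1]
    rw [h2] at hg
    rw [← hg]
    exact h1.smul g

omit [Fintype Ω] in
theorem all_le [Fintype Ω] {D : Finset Ω} {s : ℕ} (hsD : s < D.card) (hDn : D.card < Fintype.card Ω)
    (h : ∀ E : Finset Ω, E ⊆ D → E.card = s → JC G E) :
    ∀ (k : ℕ) (E : Finset Ω), E ⊆ D → E.card + k = s → JC G E := by
  intro k
  induction k with
  | zero => intro E hE hk; exact h E hE hk
  | succ k ih =>
    intro E hE hk
    have h1 : 1 < (D \ E).card := by rw [Finset.card_sdiff_of_subset hE]; omega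
    obtain ⟨u, hu, v, hv, huv⟩ := Finset.one_lt_card.1 h1
    rw [mem_sdiff] at hu hv
    have hi : ∀ w, w ∈ D → w ∉ E → JC G (insert w E) := by
      intro w hw hwE
      apply ih
      · exact Finset.insert_subset hw hE
      · rw [Finset.card_insert_of_notMem hwE]; omega
    obtain ⟨w, hw⟩ := exists_out1 hDn
    have h2 := (hi u hu.1 hu.2).inter (hi v hv.1 hv.2) (w := w)
      (fun h => hw (Finset.insert_subset hu.1 hE h)) (fun h => hw (Finset.insert_subset hv.1 hE h))
    have h3 : insert u E ∩ insert v E = E := by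
      ext x
      rw [mem_inter, mem_insert, mem_insert]
      constructor
      · rintro ⟨rfl | h4, h5⟩
        · exact h5.resolve_left huv
        · exact h4
      · intro h4; exact ⟨Or.inr h4, Or.inr h4⟩
    rwa [h3] at h2

omit [Fintype Ω] in
theorem all_move {D : Finset Ω} {s : ℕ} (hsD : s < D.card)
    (h : ∀ E : Finset Ω, E ⊆ D → E.card ≤ s → JC G E) :
    ∀ (k : ℕ) (S : Finset Ω), S.card = k → k ≤ s + 1 → ∃ g : G, g • S ⊆ D := by
  intro k
  induction k with
  | zero =>
    intro S hS _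
    rw [Finset.card_eq_zero] at hS
    exact ⟨1, by rw [hS]; simp⟩
  | succ k ih =>
    intro S hS hk
    obtain ⟨x, hx⟩ := Finset.card_pos.1 (show 0 < S.card by omega)
    have hc : (S.erase x).card = k := by rw [Finset.card_erase_of_mem hx, hS]; rfl
    obtain ⟨g, hg⟩ := ih (S.erase x) hc (by omega)
    have hJ := h (g • S.erase x) hg (by rw [Finset.card_smul_finset, hc]; omega)
    have hx2 : g • x ∉ g • S.erase x := by
      rw [Finset.smul_mem_smul_finset_iff]; exact Finset.notMem_erase x S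
    obtain ⟨w, hw1, hw2⟩ := Finset.exists_mem_notMem_of_card_lt_card (s := g • S.erase x) (t := D) (by rw [Finset.card_smul_finset, hc]; omega)
    obtain ⟨h', hh1, hh2⟩ := hJ (g • x) w hx2 hw2
    refine ⟨h' * g, ?_⟩
    intro y hy
    obtain ⟨z, hz, rfl⟩ := Finset.mem_smul_finset.1 hy
    rw [mul_smul]
    by_cases hzx : z = x
    · rw [hzx, hh2]; exact hw1
    · have h3 : g • z ∈ g • S.erase x := by
        rw [Finset.smul_mem_smul_finset_iff]; exact Finset.mem_erase.2 ⟨hzx, hz⟩
      rw [hh1 _ h3]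
      exact hg h3

/-- Step 6d -/
theorem contra {D : Finset Ω} {s : ℕ} (hn : Fintype.card Ω < 2 * D.card) (hDn : D.card < Fintype.card Ω) (hsD : s + 2 ≤ D.card)
    (hinter : ∀ g g' : G, g • D ≠ g' • D → (g • D ∩ g' • D).card ≤ s)
    (hmove : ∀ S : Finset Ω, S.card = s + 1 → ∃ g : G, g • S ⊆ D) : False := by
  obtain ⟨S, hSD, hSc⟩ := Finset.exists_subset_card_eq (show s + 1 ≤ D.card by omega)
  obtain ⟨P, hP⟩ := exists_out1 hDn
  have hPS : ∀ x, P ∉ S.erase x := fun x h => hP (hSD (Finset.mem_of_mem_erase h))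
  have h1 : ∀ x ∈ S, ∃ g : G, insert P (S.erase x) ⊆ g • D := by
    intro x hx
    obtain ⟨g, hg⟩ := hmove (insert P (S.erase x)) (by
      rw [Finset.card_insert_of_notMem (hPS x), Finset.card_erase_of_mem hx, hSc]; rfl)
    refine ⟨g⁻¹, ?_⟩
    intro y hy
    rw [← Finset.smul_mem_smul_finset_iff g, smul_inv_smul]
    exact hg (by rw [Finset.smul_mem_smul_finset_iff]; exact hy)
  choose! γ hγ using h1
  have hD1 : D = (1 : G) • D := (one_smul _ _).symm
  -- intersection with D
  have h2 : ∀ x ∈ S, γ x • D ∩ D = S.erase x := by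
    intro x hx
    have hne : γ x • D ≠ (1 : G) • D := by
      intro h
      rw [one_smul] at h
      exact hP (h ▸ hγ x hx (mem_insert_self _ _))
    have h3 := hinter _ _ hne
    rw [one_smul] at h3
    symm
    apply Finset.eq_of_subset_of_card_le
    · intro y hy
      rw [mem_inter]
      exact ⟨hγ x hx (mem_insert_of_mem hy), hSD (Finset.mem_of_mem_erase hy)⟩
    · rw [Finset.card_erase_of_mem hx, hSc]; exact h3
  have h3 : ∀ x ∈ S, ∀ y ∈ S, x ≠ y → (γ x • D ∩ γ y • D) ∩ Dᶜ ⊆ {P} := by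
    intro x hx y hy hxy
    have hne : γ x • D ≠ γ y • D := by
      intro h
      have h4 := h2 x hx
      rw [h, h2 y hy] at h4
      have h5 : x ∈ S.erase y := Finset.mem_erase.2 ⟨hxy, hx⟩
      rw [h4] at h5
      exact Finset.notMem_erase x S h5
    have h4 := hinter _ _ hne
    have hPn : P ∉ (S.erase x).erase y := fun h => hPS x (Finset.mem_of_mem_erase h)
    have h5 : insert P ((S.erase x).erase y) = γ x • D ∩ γ y • D := by
      apply Finset.eq_of_subset_of_card_le
      · intro z hz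
        rw [mem_insert] at hz
        rw [mem_inter]
        rcases hz with rfl | hz
        · exact ⟨hγ x hx (mem_insert_self _ _), hγ y hy (mem_insert_self _ _)⟩
        · have hz1 := Finset.mem_of_mem_erase hz
          refine ⟨hγ x hx (mem_insert_of_mem hz1), hγ y hy (mem_insert_of_mem ?_)⟩
          exact Finset.mem_erase.2 ⟨(Finset.mem_erase.1 hz).1, Finset.mem_of_mem_erase hz1⟩
      · rw [Finset.card_insert_of_notMem hPn, Finset.card_erase_of_mem (Finset.mem_erase.2 ⟨hxy.symm, hy⟩),
          Finset.card_erase_of_mem hx, hSc]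
        have : 1 < S.card := Finset.one_lt_card.2 ⟨x, hx, y, hy, hxy⟩
        omega
    intro z hz
    rw [mem_inter, ← h5, mem_insert, Finset.mem_compl] at hz
    rw [mem_singleton]
    rcases hz.1 with h | h
    · exact h
    · exact absurd (hSD (Finset.mem_of_mem_erase (Finset.mem_of_mem_erase h))) hz.2
  -- count
  have h4 : (S.biUnion (fun x => (γ x • D ∩ Dᶜ).erase P)).card = ∑ x ∈ S, ((γ x • D ∩ Dᶜ).erase P).card := by
    apply Finset.card_biUnion
    intro x hx y hy hxy
    refine Finset.disjoint_left.2 ?_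
    intro z hz1 hz2
    rw [mem_erase, mem_inter] at hz1 hz2
    have := h3 x hx y hy hxy (mem_inter.2 ⟨mem_inter.2 ⟨hz1.2.1, hz2.2.1⟩, hz1.2.2⟩)
    rw [mem_singleton] at this
    exact hz1.1 this
  have h5 : ∀ x ∈ S, ((γ x • D ∩ Dᶜ).erase P).card = D.card - s - 1 := by
    intro x hx
    have h6 : (γ x • D ∩ D).card + (γ x • D ∩ Dᶜ).card = D.card := by
      rw [← Finset.card_smul_finset (γ x) D, ← Finset.card_union_of_disjoint, ← Finset.inter_union_distrib_left, Finset.union_compl, Finset.inter_univ]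
      exact Disjoint.mono Finset.inter_subset_right Finset.inter_subset_right disjoint_compl_right
    rw [h2 x hx, Finset.card_erase_of_mem hx, hSc] at h6
    rw [Finset.card_erase_of_mem (mem_inter.2 ⟨hγ x hx (mem_insert_self _ _), Finset.mem_compl.2 hP⟩)]
    omega
  have h6 : S.biUnion (fun x => (γ x • D ∩ Dᶜ).erase P) ⊆ Dᶜ.erase P := by
    intro z hz
    rw [Finset.mem_biUnion] at hz
    obtain ⟨x, -, hz⟩ := hz
    rw [mem_erase, mem_inter] at hz
    rw [mem_erase]
    exact ⟨hz.1, hz.2.2⟩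
  have h7 := Finset.card_le_card h6
  rw [h4, Finset.sum_congr rfl h5, Finset.sum_const, smul_eq_mul, hSc, Finset.card_erase_of_mem (Finset.mem_compl.2 hP), Finset.card_compl] at h7
  obtain ⟨b, hb⟩ : ∃ b, D.card = s + 2 + b := ⟨D.card - (s + 2), by omega⟩
  rw [hb] at h7 hn hDn
  have h8 : s + 2 + b - s - 1 = b + 1 := by omega
  rw [h8] at h7
  have h9 : (s + 1) * (b + 1) = s * b + s + b + 1 := by ring
  rw [h9] at h7
  have h10 : 0 ≤ s * b := Nat.zero_le _
  omega

omit [Fintype Ω] in
/-- commutator of two permutations moving exactly one common point -/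
theorem comm_key (j k : G) (w : Ω) (A B : Finset Ω) (hA : ∀ x, x ∈ A → j • x = x) (hB : ∀ x, x ∈ B → k • x = x)
    (hAB : ∀ x, x ∉ A → x ∉ B → x = w) (hjw : j • w ≠ w) (hkw : k • w ≠ w) (hwA : w ∉ A) (hwB : w ∉ B) :
    (MulAction.toPerm (j * k * j⁻¹ * k⁻¹) : Equiv.Perm Ω) = Equiv.swap w (k • w) * Equiv.swap w (j • w) ∧ j • w ≠ k • w := by
  have hA' : ∀ x, x ∈ A → j⁻¹ • x = x := fun x hx => by rw [inv_smul_eq_iff, hA x hx]
  have hB' : ∀ x, x ∈ B → k⁻¹ • x = x := fun x hx => by rw [inv_smul_eq_iff, hB x hx]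
  -- moved points
  have hjA : ∀ x, j • x ≠ x → x ∉ A := fun x h hx => h (hA x hx)
  have hkB : ∀ x, k • x ≠ x → x ∉ B := fun x h hx => h (hB x hx)
  have hjwA : j • w ∉ A := by
    intro h
    have := hA' _ h
    rw [inv_smul_smul] at this
    exact hjw this.symm
  have hkwB : k • w ∉ B := by
    intro h
    have := hB' _ h
    rw [inv_smul_smul] at this
    exact hkw this.symm
  have hjwB : j • w ∈ B := by
    by_contra h
    exact hjw (hAB _ hjwA h)
  have hkwA : k • w ∈ A := by
    by_contra h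
    exact hkw (hAB _ h hkwB)
  have hjk : j • w ≠ k • w := fun h => hjwA (h ▸ hkwA)
  have key : (MulAction.toPerm (j * k * j⁻¹ * k⁻¹) : Equiv.Perm Ω) = Equiv.swap w (k • w) * Equiv.swap w (j • w) := by
    ext x
    rw [MulAction.toPerm_apply, Equiv.Perm.mul_apply, mul_smul, mul_smul, mul_smul]
    by_cases h1 : x = w
    · subst h1
      rw [Equiv.swap_apply_left, Equiv.swap_apply_of_ne_of_ne hjw hjk]
      have h2 : k⁻¹ • x ∉ B := by
        intro h
        have := hB _ h
        rw [smul_inv_smul] at this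
        rw [← this] at h
        exact hwB h
      have h3 : k⁻¹ • x ≠ x := by
        intro h
        rw [inv_smul_eq_iff] at h
        exact hkw h.symm
      have h4 : k⁻¹ • x ∈ A := by
        by_contra h
        exact h3 (hAB _ h h2)
      rw [hA' _ h4, smul_inv_smul]
    · by_cases h2 : x = j • w
      · subst h2
        rw [Equiv.swap_apply_right, Equiv.swap_apply_left, hB' _ hjwB, inv_smul_smul, hA _ hkwA]
      · rw [Equiv.swap_apply_of_ne_of_ne h1 h2]
        by_cases h3 : x = k • w
        · subst h3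
          rw [Equiv.swap_apply_right, inv_smul_smul]
          have h4 : j⁻¹ • w ∉ A := by
            intro h
            have := hA _ h
            rw [smul_inv_smul] at this
            rw [← this] at h
            exact hwA h
          have h5 : j⁻¹ • w ≠ w := by
            intro h
            rw [inv_smul_eq_iff] at h
            exact hjw h.symm
          have h6 : j⁻¹ • w ∈ B := by
            by_contra h
            exact h5 (hAB _ h4 h)
          rw [hB _ h6, smul_inv_smul]
        · rw [Equiv.swap_apply_of_ne_of_ne h1 h3]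
          by_cases h4 : x ∈ B
          · rw [hB' _ h4]
            by_cases h5 : x ∈ A
            · rw [hA' _ h5, hB _ h4, hA _ h5]
            · have h6 : j⁻¹ • x ∉ A := by
                intro h
                have := hA _ h
                rw [smul_inv_smul] at this
                rw [← this] at h
                exact h5 h
              have h7 : j⁻¹ • x ≠ w := by
                intro h
                rw [inv_smul_eq_iff] at h
                exact h2 h
              have h8 : j⁻¹ • x ∈ B := by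
                by_contra h
                exact h7 (hAB _ h6 h)
              rw [hB _ h8, smul_inv_smul]
          · have h5 : x ∈ A := by
              by_contra h
              exact h1 (hAB _ h h4)
            have h6 : k⁻¹ • x ∉ B := by
              intro h
              have := hB _ h
              rw [smul_inv_smul] at this
              rw [← this] at h
              exact h4 h
            have h7 : k⁻¹ • x ≠ w := by
              intro h
              rw [inv_smul_eq_iff] at h
              exact h3 h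
            have h8 : k⁻¹ • x ∈ A := by
              by_contra h
              exact h7 (hAB _ h h6)
            rw [hA' _ h8, smul_inv_smul, hA _ h5]
  exact ⟨key, hjk⟩

omit [Fintype Ω] in
theorem comm_three [Fintype Ω] (j k : G) (w : Ω) (A B : Finset Ω) (hA : ∀ x, x ∈ A → j • x = x) (hB : ∀ x, x ∈ B → k • x = x)
    (hAB : ∀ x, x ∉ A → x ∉ B → x = w) (hjw : j • w ≠ w) (hkw : k • w ≠ w) (hwA : w ∉ A) (hwB : w ∉ B) :
    (MulAction.toPerm (j * k * j⁻¹ * k⁻¹) : Equiv.Perm Ω).IsThreeCycle := by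
  obtain ⟨key, hjk⟩ := comm_key j k w A B hA hB hAB hjw hkw hwA hwB
  rw [key]
  exact Equiv.Perm.isThreeCycle_swap_mul_swap_same (Ne.symm hkw) (Ne.symm hjw) (Ne.symm hjk)

/-- Step 7: the case where one can exchange single points -/
theorem step7 {D : Finset Ω} (hD : JC G D) (hn : Fintype.card Ω < 2 * D.card) (hD2 : D.card + 2 ≤ Fintype.card Ω)
    (hall : ∀ E : Finset Ω, E ⊆ D → E.card ≤ D.card - 1 → JC G E) :
    ∃ g : G, (MulAction.toPerm g : Equiv.Perm Ω).IsThreeCycle := by
  obtain ⟨w, w', hww, hw, hw'⟩ := exists_two_out hD2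
  obtain ⟨E, hED, hEc⟩ := Finset.exists_subset_card_eq (s := D) (n := 2 * D.card + 1 - Fintype.card Ω) (by omega)
  have hwE : ∀ x, x ∈ E → x ∉ Dᶜ.erase w := by
    intro x hx h
    rw [mem_erase, mem_compl] at h
    exact h.2 (hED hx)
  have hSc : (E ∪ Dᶜ.erase w).card = D.card := by
    rw [Finset.card_union_of_disjoint (Finset.disjoint_left.2 hwE), hEc, Finset.card_erase_of_mem (mem_compl.2 hw), Finset.card_compl]
    omega
  obtain ⟨g, hg⟩ := all_move (G := G) (s := D.card - 1) (by omega) hall _ _ hSc (by omega)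
  have hgS : g • (E ∪ Dᶜ.erase w) = D := Finset.eq_of_subset_of_card_le hg (by rw [Finset.card_smul_finset, hSc])
  have hJ' : JC G (E ∪ Dᶜ.erase w) := by
    have h1 := hD.smul g⁻¹
    rw [← hgS, inv_smul_smul] at h1
    exact h1
  have hwS : w ∉ E ∪ Dᶜ.erase w := by
    rw [mem_union, not_or]
    exact ⟨fun h => hw (hED h), Finset.notMem_erase w _⟩
  obtain ⟨j, hj1, hj2⟩ := hD w w' hw hw'
  obtain ⟨u, hu, huw⟩ : ∃ u, u ∉ E ∪ Dᶜ.erase w ∧ u ≠ w := by
    obtain ⟨a, b, hab, ha, hb⟩ := exists_two_out (D := E ∪ Dᶜ.erase w) (by rw [hSc]; exact hD2)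
    by_cases h : a = w
    · exact ⟨b, hb, fun h2 => hab (h.trans h2.symm)⟩
    · exact ⟨a, ha, h⟩
  obtain ⟨k, hk1, hk2⟩ := hJ' w u hwS hu
  refine ⟨j * k * j⁻¹ * k⁻¹, comm_three j k w D (E ∪ Dᶜ.erase w) hj1 hk1 ?_ (by rw [hj2]; exact hww.symm) (by rw [hk2]; exact huw) hw hwS⟩
  intro x hx1 hx2
  by_contra h
  apply hx2
  rw [mem_union, mem_erase, mem_compl]
  exact Or.inr ⟨h, hx1⟩

end
/-- even permutations are induced -/
def Ev (G Ω : Type*) [Group G] [MulAction G Ω] [Fintype Ω] [DecidableEq Ω] : Prop :=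
  ∀ σ : Equiv.Perm Ω, Equiv.Perm.sign σ = 1 → ∃ x : G, (MulAction.toPerm x : Equiv.Perm Ω) = σ

theorem T2.preprim {G Ω : Type*} [Group G] [MulAction G Ω] (h : T2 G Ω) : IsMultiplyPretransitive G Ω 2 := by
  rw [is_two_pretransitive_iff]
  intro a b c d hab hcd
  exact h a b c d hab hcd

theorem ev_of_three {G Ω : Type*} [Group G] [MulAction G Ω] [Fintype Ω] [DecidableEq Ω] (h2 : T2 G Ω)
    (h3 : ∃ g : G, (MulAction.toPerm g : Equiv.Perm Ω).IsThreeCycle) : Ev G Ω := by
  intro σ hσ
  have h2' : T2 ↥(MulAction.toPermHom G Ω).range Ω := by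
    intro a b c d hab hcd
    obtain ⟨g, hg1, hg2⟩ := h2 a b c d hab hcd
    exact ⟨⟨MulAction.toPermHom G Ω g, ⟨g, rfl⟩⟩, hg1, hg2⟩
  have h4 := h2'.preprim
  have h5 : IsPreprimitive ↥(MulAction.toPermHom G Ω).range Ω := isPreprimitive_of_is_two_pretransitive h4
  obtain ⟨g, hg⟩ := h3
  have h6 := Equiv.Perm.alternatingGroup_le_of_isPreprimitive_of_isThreeCycle_mem h5 hg ⟨g, rfl⟩
  obtain ⟨x, hx⟩ := h6 (Equiv.Perm.mem_alternatingGroup.2 hσ)
  exact ⟨x, hx⟩

section
variable {G Ω : Type*} [Group G] [MulAction G Ω] [Fintype Ω] [DecidableEq Ω]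

theorem exists_max (h2 : T2 G Ω) {D : Finset Ω} (hD : JC G D) (hD1 : Fintype.card Ω < 2 * D.card) (hD2 : D.card + 2 ≤ Fintype.card Ω) :
    ∃ (s : ℕ) (D2 : Finset Ω), D2 ⊆ D ∧ D2.card = s ∧ JC G D2 ∧ s < D.card ∧ D.card < 2 * s ∧
      (∀ g g' : G, g • D ≠ g' • D → (g • D ∩ g' • D).card ≤ s) := by
  classical
  obtain ⟨F, hFm⟩ := Set.Finite.exists_maximalFor (fun F : Finset Ω => (D ∩ F).card)
    {F : Finset Ω | ∃ g : G, g • D = F ∧ F ≠ D ∧ (D ∪ F).card < Fintype.card Ω} (Set.toFinite _) (by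
      obtain ⟨g, ⟨w, hw1, hw2⟩, hg⟩ := h2.move hD2 (Finset.card_pos.1 (by omega))
      refine ⟨g • D, g, rfl, hg, ?_⟩
      rw [← Finset.card_univ]
      apply Finset.card_lt_card
      rw [Finset.ssubset_univ_iff]
      intro h
      have := Finset.mem_univ w
      rw [← h, mem_union] at this
      rcases this with h3 | h3
      · exact hw1 h3
      · exact hw2 h3)
  obtain ⟨x, rfl, hxD, hxn⟩ := hFm.prop
  have hmax : ∀ g : G, g • D ≠ D → (D ∪ g • D).card < Fintype.card Ω → (D ∩ g • D).card ≤ (D ∩ x • D).card := by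
    intro g h1 h3
    by_contra hcon
    push Not at hcon
    have := hFm.2 (j := g • D) ⟨g, rfl, h1, h3⟩ hcon.le
    exact absurd this (by simpa using hcon)
  have hc := Finset.card_union_add_card_inter D (x • D)
  rw [Finset.card_smul_finset] at hc
  have hinter : ∀ g g' : G, g • D ≠ g' • D → (g • D ∩ g' • D).card ≤ (D ∩ x • D).card := by
    intro g g' hgg
    have h3 : (g • D ∩ g' • D).card = (D ∩ (g⁻¹ * g') • D).card := by
      rw [← Finset.card_smul_finset g (D ∩ (g⁻¹ * g') • D), Finset.smul_finset_inter, ← mul_smul, mul_inv_cancel_left]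
    rw [h3]
    have hne : (g⁻¹ * g') • D ≠ D := by
      intro h
      rw [mul_smul, inv_smul_eq_iff] at h
      exact hgg h.symm
    by_cases h4 : (D ∪ (g⁻¹ * g') • D).card < Fintype.card Ω
    · exact hmax _ hne h4
    · have hc2 := Finset.card_union_add_card_inter D ((g⁻¹ * g') • D)
      rw [Finset.card_smul_finset] at hc2
      omega
  have hlt : (D ∩ x • D).card < D.card := by
    apply Finset.card_lt_card
    refine Finset.ssubset_iff_subset_ne.2 ⟨Finset.inter_subset_left, ?_⟩
    intro h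
    have h3 : D ⊆ x • D := Finset.inter_eq_left.1 h
    exact hxD (Finset.eq_of_subset_of_card_le h3 (by rw [Finset.card_smul_finset])).symm
  have hJ2 := hD.inter' (hD.smul x) hxn
  -- (5a)
  have h5a : 2 * (D.card - (D ∩ x • D).card) ≤ Fintype.card Ω - D.card := by
    by_contra hcon
    push Not at hcon
    obtain ⟨w, hw1, hw2⟩ := exists_out hxn
    obtain ⟨u, hu1, hu2⟩ : ∃ u ∈ x • D, u ∉ D := by
      by_contra hcon2
      push Not at hcon2
      exact hxD (Finset.eq_of_subset_of_card_le hcon2 (by rw [Finset.card_smul_finset]))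
    obtain ⟨j, hj1, hj2⟩ := hD u w hu2 hw1
    have hne : x • D ≠ (j * x) • D := by
      intro h
      apply hw2
      rw [h, mul_smul, ← hj2, Finset.smul_mem_smul_finset_iff]
      exact hu1
    have h6 := hinter _ _ hne
    -- sizes outside of `D`
    have hjD : j • D = D := by
      apply Finset.eq_of_subset_of_card_le
      · intro y hy
        obtain ⟨z, hz, rfl⟩ := Finset.mem_smul_finset.1 hy
        rw [hj1 z hz]; exact hz
      · rw [Finset.card_smul_finset]
    have hjE : D ∩ (j * x) • D = D ∩ x • D := by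
      have h7 : j • (D ∩ x • D) = D ∩ (j * x) • D := by
        rw [Finset.smul_finset_inter, hjD, mul_smul]
      rw [← h7]
      apply Finset.eq_of_subset_of_card_le
      · intro y hy
        obtain ⟨z, hz, rfl⟩ := Finset.mem_smul_finset.1 hy
        rw [hj1 z (mem_inter.1 hz).1]; exact hz
      · rw [Finset.card_smul_finset]
    have h8 : (x • D \ D).card = D.card - (D ∩ x • D).card := by
      rw [Finset.card_sdiff, Finset.card_smul_finset]
    have h9 : ((j * x) • D \ D).card = D.card - (D ∩ x • D).card := by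
      rw [Finset.card_sdiff, Finset.card_smul_finset, hjE]
    have h10 := Finset.card_union_add_card_inter (x • D \ D) ((j * x) • D \ D)
    have h11 : (x • D \ D ∪ (j * x) • D \ D).card ≤ Fintype.card Ω - D.card := by
      rw [← Finset.card_compl]
      apply Finset.card_le_card
      intro y hy
      rw [mem_union, mem_sdiff, mem_sdiff] at hy
      rw [mem_compl]
      rcases hy with h | h
      · exact h.2
      · exact h.2
    have h12 : 0 < (x • D \ D ∩ ((j * x) • D \ D)).card := by omega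
    obtain ⟨z, hz⟩ := Finset.card_pos.1 h12
    rw [mem_inter, mem_sdiff, mem_sdiff] at hz
    have h13 : insert z (D ∩ x • D) ⊆ x • D ∩ (j * x) • D := by
      intro y hy
      rw [mem_insert] at hy
      rw [mem_inter]
      rcases hy with rfl | hy
      · exact ⟨hz.1.1, hz.2.1⟩
      · refine ⟨(mem_inter.1 hy).2, ?_⟩
        rw [← hjE] at hy
        exact (mem_inter.1 hy).2
    have h14 := Finset.card_le_card h13
    rw [Finset.card_insert_of_notMem (fun h => hz.1.2 (mem_inter.1 h).1)] at h14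
    omega
  exact ⟨_, D ∩ x • D, Finset.inter_subset_left, rfl, hJ2, hlt, by omega, hinter⟩

theorem case_one (h2 : T2 G Ω) {D : Finset Ω} (hD : JC G D) (hD1 : Fintype.card Ω < 2 * D.card) (hD2 : D.card + 2 ≤ Fintype.card Ω)
    {s : ℕ} {D2 : Finset Ω} (hsub : D2 ⊆ D) (hs : D2.card = s) (hJ : JC G D2) (hs1 : s + 1 = D.card) : Ev G Ω := by
  apply ev_of_three h2
  have hp := step2 h2 hD hD1 hD2
  have hX : ∀ E : Finset Ω, E ⊆ D → E.card = s → ∀ u ∈ E, ∀ v ∈ D, v ∉ E → ∃ g : G, g • E = insert v (E.erase u) := by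
    intro E hE hEs u hu v hv hvE
    have huv : u ≠ v := fun h => hvE (h ▸ hu)
    obtain ⟨g, hgD, hgv, hgu⟩ := step4 h2 hD (by omega) hp huv.symm huv hv (hE hu) (hE hu) hv
    have hEv : insert v E = D := by
      apply Finset.eq_of_subset_of_card_le
      · exact Finset.insert_subset hv hE
      · rw [Finset.card_insert_of_notMem hvE]; omega
    have hcard : (insert v (E.erase u)).card = E.card := by
      rw [Finset.card_insert_of_notMem (fun h => hvE (Finset.mem_of_mem_erase h)), Finset.card_erase_of_mem hu]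
      have : 0 < E.card := Finset.card_pos.2 ⟨u, hu⟩
      omega
    refine ⟨g, ?_⟩
    apply Finset.eq_of_subset_of_card_le
    · intro y hy
      obtain ⟨z, hz, rfl⟩ := Finset.mem_smul_finset.1 hy
      have h3 : g • z ∈ D := by
        rw [← hgD, Finset.smul_mem_smul_finset_iff]; exact hE hz
      have h4 : g • z ≠ u := by
        intro h
        rw [← hgv] at h
        exact hvE (MulAction.injective g h ▸ hz)
      rw [← hEv, mem_insert] at h3
      rw [mem_insert, mem_erase]
      rcases h3 with h3 | h3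
      · exact Or.inl h3
      · exact Or.inr ⟨h4, h3⟩
    · rw [Finset.card_smul_finset, hcard]
  have h3 := all_s hsub hs hJ hX
  have h4 := all_le (by omega) (by omega) (fun E hE hEs => h3 _ E hE hEs rfl)
  exact step7 hD hD1 hD2 (fun E hE hEc => h4 (s - E.card) E hE (by omega))

/-- action of the set stabilizer on the set -/
def stabAct (G : Type*) {Ω : Type*} [Group G] [MulAction G Ω] [DecidableEq Ω] (D : Finset Ω) : MulAction ↥(stabilizer G D) ↥D where
  smul g x := ⟨(g : G) • (x : Ω), by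
    have h := mem_stabilizer_iff.1 g.2
    have h2 : (g : G) • (x : Ω) ∈ (g : G) • D := (Finset.smul_mem_smul_finset_iff _).2 x.2
    rwa [h] at h2⟩
  one_smul x := Subtype.ext (one_smul G (x : Ω))
  mul_smul g h x := Subtype.ext (mul_smul (g : G) (h : G) (x : Ω))

end

universe u v

theorem marggraf : ∀ (n : ℕ) (Ω : Type u) [Fintype Ω] [DecidableEq Ω] (G : Type v) [Group G] [MulAction G Ω],
    Fintype.card Ω = n → T2 G Ω → ∀ D : Finset Ω, JC G D → Fintype.card Ω < 2 * D.card → D.card + 2 ≤ Fintype.card Ω → Ev G Ω := by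
  intro n
  induction n using Nat.strong_induction_on with
  | _ n ih =>
    intro Ω _ _ G _ _ hn h2 D hD hD1 hD2
    obtain ⟨s, D2, hsub, hs, hJ, hsD, hs2, hinter⟩ := exists_max h2 hD hD1 hD2
    by_cases h1 : s + 1 = D.card
    · exact case_one h2 hD hD1 hD2 hsub hs hJ h1
    exfalso
    have hsD2 : s + 2 ≤ D.card := by omega
    have hp := step2 h2 hD hD1 hD2
    letI := stabAct G D
    have hT : T2 ↥(stabilizer G D) ↥D := by
      intro a b c d hab hcd
      obtain ⟨g, hg, hg1, hg2⟩ := step4 h2 hD (by omega) hp (a1 := a) (a2 := b) (b1 := c) (b2 := d)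
        (fun h => hab (Subtype.ext h)) (fun h => hcd (Subtype.ext h)) a.2 b.2 c.2 d.2
      exact ⟨⟨g, mem_stabilizer_iff.2 hg⟩, Subtype.ext hg1, Subtype.ext hg2⟩
    have hD2c : (D2.subtype (· ∈ D)).card = s := by
      rw [Finset.card_subtype, Finset.filter_true_of_mem (fun x hx => hsub hx), hs]
    have hJ' : JC ↥(stabilizer G D) (D2.subtype (· ∈ D)) := by
      intro x y hx hy
      rw [Finset.mem_subtype] at hx hy
      obtain ⟨h, hh1, hh2⟩ := hJ x y hx hy
      have hst : h • D = D := by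
        by_contra hne
        have h3 := hinter h 1 (by rw [one_smul]; exact hne)
        have h4 : insert (y : Ω) D2 ⊆ h • D ∩ (1 : G) • D := by
          intro z hz
          rw [mem_insert] at hz
          rw [mem_inter, one_smul]
          rcases hz with rfl | hz
          · exact ⟨by rw [← hh2, Finset.smul_mem_smul_finset_iff]; exact x.2, y.2⟩
          · exact ⟨by rw [← hh1 z hz, Finset.smul_mem_smul_finset_iff]; exact hsub hz, hsub hz⟩
        have h5 := Finset.card_le_card h4
        rw [Finset.card_insert_of_notMem hy] at h5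
        omega
      refine ⟨⟨h, mem_stabilizer_iff.2 hst⟩, ?_, Subtype.ext hh2⟩
      intro d hd
      rw [Finset.mem_subtype] at hd
      exact Subtype.ext (hh1 d hd)
    have hcD : Fintype.card ↥D = D.card := Fintype.card_coe D
    have hEv : Ev ↥(stabilizer G D) ↥D := ih D.card (by omega) ↥D ↥(stabilizer G D) hcD hT (D2.subtype (· ∈ D)) hJ'
      (by rw [hcD, hD2c]; exact hs2) (by rw [hcD, hD2c]; exact hsD2)
    have hX : ∀ E : Finset Ω, E ⊆ D → E.card = s → ∀ u ∈ E, ∀ v ∈ D, v ∉ E → ∃ g : G, g • E = insert v (E.erase u) := by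
      intro E hE hEs u hu v hv hvE
      have huv : u ≠ v := fun h => hvE (h ▸ hu)
      obtain ⟨w, hw, hwv⟩ := Finset.exists_mem_ne (s := D \ E) (by rw [Finset.card_sdiff_of_subset hE]; omega) v
      rw [mem_sdiff] at hw
      have huw : u ≠ w := fun h => hw.2 (h ▸ hu)
      obtain ⟨g, hg⟩ := hEv (Equiv.swap (⟨u, hE hu⟩ : ↥D) ⟨v, hv⟩ * Equiv.swap (⟨v, hv⟩ : ↥D) ⟨w, hw.1⟩) (by
        rw [map_mul, Equiv.Perm.sign_swap (fun h => huv (congrArg Subtype.val h)),
          Equiv.Perm.sign_swap (fun h => hwv (congrArg Subtype.val h).symm)]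
        decide)
      have hgu : (g : G) • u = v := by
        have h3 := congrArg Subtype.val (DFunLike.congr_fun hg ⟨u, hE hu⟩)
        have e1 : Equiv.swap (⟨v, hv⟩ : ↥D) ⟨w, hw.1⟩ ⟨u, hE hu⟩ = ⟨u, hE hu⟩ :=
          Equiv.swap_apply_of_ne_of_ne (fun h => huv (congrArg Subtype.val h)) (fun h => huw (congrArg Subtype.val h))
        rw [Equiv.Perm.mul_apply, e1, Equiv.swap_apply_left] at h3
        exact h3
      have hgx : ∀ x ∈ E, x ≠ u → (g : G) • x = x := by
        intro x hx hxu
        have h3 := congrArg Subtype.val (DFunLike.congr_fun hg ⟨x, hE hx⟩)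
        have hxv : x ≠ v := fun h => hvE (h ▸ hx)
        have hxw : x ≠ w := fun h => hw.2 (h ▸ hx)
        have e1 : Equiv.swap (⟨v, hv⟩ : ↥D) ⟨w, hw.1⟩ ⟨x, hE hx⟩ = ⟨x, hE hx⟩ :=
          Equiv.swap_apply_of_ne_of_ne (fun h => hxv (congrArg Subtype.val h)) (fun h => hxw (congrArg Subtype.val h))
        have e2 : Equiv.swap (⟨u, hE hu⟩ : ↥D) ⟨v, hv⟩ ⟨x, hE hx⟩ = ⟨x, hE hx⟩ :=
          Equiv.swap_apply_of_ne_of_ne (fun h => hxu (congrArg Subtype.val h)) (fun h => hxv (congrArg Subtype.val h))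
        rw [Equiv.Perm.mul_apply, e1, e2] at h3
        exact h3
      have hcard : (insert v (E.erase u)).card = E.card := by
        rw [Finset.card_insert_of_notMem (fun h => hvE (Finset.mem_of_mem_erase h)), Finset.card_erase_of_mem hu]
        have : 0 < E.card := Finset.card_pos.2 ⟨u, hu⟩
        omega
      refine ⟨g, ?_⟩
      apply Finset.eq_of_subset_of_card_le
      · intro y hy
        obtain ⟨z, hz, rfl⟩ := Finset.mem_smul_finset.1 hy
        rw [mem_insert, mem_erase]
        by_cases hzu : z = u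
        · left; rw [hzu, hgu]
        · right; rw [hgx z hz hzu]; exact ⟨hzu, hz⟩
      · rw [Finset.card_smul_finset, hcard]
    have h3 := all_s hsub hs hJ hX
    have h4 := all_le hsD (by omega) (fun E hE hEs => h3 _ E hE hEs rfl)
    have h5 := all_move hsD (fun E hE hEc => h4 (s - E.card) E hE (by omega))
    exact contra hD1 (by omega) hsD2 hinter (fun S hS => h5 _ S hS le_rfl)

end CfsgLib.MgH14
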