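import Mathlib
import Cfsg.Agent.LibMgH14
set_option autoImplicit false
namespace CfsgLib.MgH14
open MulAction Finset
open scoped Pointwise

theorem T2_of_prim {G S : Type*} [Group G] [MulAction G S] [Fintype S] [DecidableEq S] (hp : IsPreprimitive G S)
    {D : Finset S} (hD : JC G D) (h0 : 0 < D.card) (h2 : D.card + 2 ≤ Fintype.card S) : T2 G S := by
  have hs : ((D : Set S)).ncard = (D.card - 1) + 1 := by rw [Set.ncard_coe_finset]; omega
  have hc : (D.card - 1) + 2 < Nat.card S := by rw [Nat.card_eq_fintype_card]; omega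
  have ht : IsPretransitive ↥(fixingSubgroup G (D : Set S)) ↥(SubMulAction.ofFixingSubgroup G (D : Set S)) := by
    refine ⟨fun x y => ?_⟩
    have hx := (SubMulAction.mem_ofFixingSubgroup_iff G).1 x.2
    have hy := (SubMulAction.mem_ofFixingSubgroup_iff G).1 y.2
    obtain ⟨g, hg1, hg2⟩ := hD x y (fun h => hx h) (fun h => hy h)
    exact ⟨⟨g, (mem_fixingSubgroup_iff G).2 (fun d hd => hg1 d hd)⟩, Subtype.ext hg2⟩
  have h := hp.is_two_pretransitive hs hc ht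
  rw [is_two_pretransitive_iff] at h
  intro a b c d hab hcd
  exact h hab hcd

theorem alt_le {α : Type*} [Fintype α] [DecidableEq α] (T : Subgroup (Equiv.Perm α))
    (hT : ∀ τ : Equiv.Perm α, Equiv.Perm.sign τ = 1 → ∀ ρ ∈ T, τ * ρ * τ⁻¹ ∈ T)
    {a b c : α} (hab : a ≠ b) (hac : a ≠ c) (hbc : b ≠ c) (hρ : Equiv.swap a b * Equiv.swap a c ∈ T) :
    ∀ σ : Equiv.Perm α, Equiv.Perm.sign σ = 1 → σ ∈ T := by
  have h1 : Subgroup.closure {σ : Equiv.Perm α | σ.IsThreeCycle} ≤ T := by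
    rw [Subgroup.closure_le]
    intro ρ' hρ'
    have h3 : (Equiv.swap a b * Equiv.swap a c).IsThreeCycle := Equiv.Perm.isThreeCycle_swap_mul_swap_same hab hac hbc
    have h4 : IsConj (Equiv.swap a b * Equiv.swap a c) ρ' := by
      apply Equiv.Perm.isConj_of_cycleType_eq
      rw [h3, (show ρ'.IsThreeCycle from hρ')]
    obtain ⟨τ, hτ⟩ := isConj_iff.1 h4
    rw [← hτ]
    rcases Int.units_eq_one_or (Equiv.Perm.sign τ) with h5 | h5
    · exact hT τ h5 _ hρ
    · have h6 : Equiv.Perm.sign (τ * Equiv.swap b c) = 1 := by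
        rw [map_mul, h5, Equiv.Perm.sign_swap hbc]; decide
      have h7 := hT _ h6 _ (T.inv_mem hρ)
      have h8 : Equiv.swap b c * (Equiv.swap a b * Equiv.swap a c)⁻¹ * (Equiv.swap b c)⁻¹ = Equiv.swap a b * Equiv.swap a c := by
        have e1 : Equiv.swap b c * Equiv.swap a c = Equiv.swap a b * Equiv.swap b c := by
          rw [Equiv.mul_swap_eq_swap_mul, Equiv.swap_apply_of_ne_of_ne hab hac, Equiv.swap_apply_right]
        have e2 : Equiv.swap b c * Equiv.swap a b = Equiv.swap a c * Equiv.swap b c := by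
          rw [Equiv.mul_swap_eq_swap_mul, Equiv.swap_apply_of_ne_of_ne hab hac, Equiv.swap_apply_left]
        rw [mul_inv_rev, Equiv.swap_inv, Equiv.swap_inv, Equiv.swap_inv, ← mul_assoc, e1, mul_assoc, mul_assoc, ← mul_assoc (Equiv.swap b c), e2,
          mul_assoc, Equiv.swap_mul_self, mul_one]
      have h9 : τ * Equiv.swap b c * (Equiv.swap a b * Equiv.swap a c)⁻¹ * (τ * Equiv.swap b c)⁻¹
          = τ * (Equiv.swap b c * (Equiv.swap a b * Equiv.swap a c)⁻¹ * (Equiv.swap b c)⁻¹) * τ⁻¹ := by group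
      rw [h9, h8] at h7
      exact h7
  intro σ hσ
  apply h1
  rw [Equiv.Perm.closure_three_cycles_eq_alternating]
  exact Equiv.Perm.mem_alternatingGroup.2 hσ

section
variable {G Ω S : Type*} [Group G] [MulAction G Ω] [MulAction G S] [Fintype Ω] [DecidableEq Ω] [Fintype S] [DecidableEq S]

omit [Fintype Ω] [DecidableEq Ω] [Fintype S] [DecidableEq S] in
theorem faithful_S (φ : Ω → S) (hφ : ∀ (g : G) x, φ (g • x) = g • φ x) (hsur : Function.Surjective φ) (hnt : Nontrivial S)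
    (hqp : ∀ N : Subgroup G, N.Normal → N ≠ ⊥ → ∀ x y : Ω, ∃ n ∈ N, n • x = y) :
    ∀ g : G, (∀ s : S, g • s = s) → g = 1 := by
  intro g hg
  by_contra hne
  obtain ⟨s, t, hst⟩ := hnt
  obtain ⟨x, rfl⟩ := hsur s
  obtain ⟨y, rfl⟩ := hsur t
  obtain ⟨n, hn, hny⟩ := hqp (MulAction.toPermHom G S).ker inferInstance (by
    intro h
    apply hne
    have h2 : g ∈ (MulAction.toPermHom G S).ker := by
      rw [MonoidHom.mem_ker]
      ext s
      exact hg s
    rw [h] at h2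
    exact Subgroup.mem_bot.1 h2) x y
  apply hst
  have h3 : n • φ x = φ x := by
    rw [MonoidHom.mem_ker] at hn
    exact DFunLike.congr_fun hn (φ x)
  rw [← h3, ← hφ, hny]

/-- the image of a Jordan set in the quotient -/
theorem quot_jc (φ : Ω → S) (hφ : ∀ (g : G) x, φ (g • x) = g • φ x) (hsur : Function.Surjective φ)
    (htr : ∀ x y : Ω, ∃ g : G, g • x = y)
    (hfaith : ∀ g : G, (∀ s : S, g • s = s) → g = 1)
    (Γ : Finset Ω) (hΓ1 : 1 < Γ.card) (hΓ2 : 2 * Γ.card < Fintype.card Ω)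
    (hJ : ∀ x y, x ∈ Γ → y ∈ Γ → ∃ g : G, (∀ d, d ∉ Γ → g • d = d) ∧ g • x = y) :
    ∃ D : Finset S, JC G D ∧ Fintype.card S < 2 * D.card ∧ D.card + 2 ≤ Fintype.card S ∧ (∀ x, x ∈ Γ ↔ φ x ∉ D) := by
  classical
  have hmem : ∀ s, s ∉ (Γᶜ).image φ → ∀ x, φ x = s → x ∈ Γ := by
    intro s hs x hx
    by_contra h
    exact hs (Finset.mem_image.2 ⟨x, Finset.mem_compl.2 h, hx⟩)
  have hfixD : ∀ g : G, (∀ d, d ∉ Γ → g • d = d) → ∀ s ∈ (Γᶜ).image φ, g • s = s := by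
    intro g hg s hs
    obtain ⟨d, hd, rfl⟩ := Finset.mem_image.1 hs
    rw [← hφ, hg d (Finset.mem_compl.1 hd)]
  obtain ⟨x0, hx0, y0, hy0, hxy0⟩ := Finset.one_lt_card.1 hΓ1
  obtain ⟨j0, hj0, hj0x⟩ := hJ x0 y0 hx0 hy0
  have hj01 : j0 ≠ 1 := by
    rintro rfl
    rw [one_smul] at hj0x
    exact hxy0 hj0x
  -- claim 2
  have hΓ : ∀ x ∈ Γ, φ x ∉ (Γᶜ).image φ := by
    intro x hx hxD
    obtain ⟨d, hd, hdx⟩ := Finset.mem_image.1 hxD
    have h1 : ∀ y ∈ Γ, φ y = φ d := by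
      intro y hy
      obtain ⟨j, hj1, hj2⟩ := hJ x y hx hy
      rw [← hj2, hφ, ← hdx, ← hφ, hj1 d (Finset.mem_compl.1 hd)]
    apply hj01
    apply hfaith
    intro s
    obtain ⟨z, rfl⟩ := hsur s
    by_cases hz : z ∈ Γ
    · exact hfixD j0 hj0 _ (Finset.mem_image.2 ⟨d, hd, (h1 z hz).symm⟩)
    · exact hfixD j0 hj0 _ (Finset.mem_image.2 ⟨z, Finset.mem_compl.2 hz, rfl⟩)
  have hiff : ∀ x, x ∈ Γ ↔ φ x ∉ (Γᶜ).image φ := fun x => ⟨hΓ x, fun h => hmem _ h x rfl⟩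
  refine ⟨(Γᶜ).image φ, ?_, ?_, ?_, hiff⟩
  · intro s t hs ht
    obtain ⟨x, rfl⟩ := hsur s
    obtain ⟨y, rfl⟩ := hsur t
    obtain ⟨j, hj1, hj2⟩ := hJ x y ((hiff x).2 hs) ((hiff y).2 ht)
    refine ⟨j, hfixD j hj1, ?_⟩
    rw [← hφ, hj2]
  · -- fibres of equal size
    have hfib : ∀ s t : S, (Finset.univ.filter (fun x => φ x = s)).card = (Finset.univ.filter (fun x => φ x = t)).card := by
      have hle : ∀ s t : S, (Finset.univ.filter (fun x => φ x = s)).card ≤ (Finset.univ.filter (fun x => φ x = t)).card := by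
        intro s t
        obtain ⟨x, rfl⟩ := hsur s
        obtain ⟨y, rfl⟩ := hsur t
        obtain ⟨g, hg⟩ := htr x y
        apply Finset.card_le_card_of_injOn (fun z => g • z)
        · intro z hz
          simp only [Finset.coe_filter, Finset.mem_univ, true_and, Set.mem_setOf_eq] at hz ⊢
          rw [hφ, hz, ← hφ, hg]
        · intro z _ z' _ h
          exact MulAction.injective g h
      exact fun s t => le_antisymm (hle s t) (hle t s)
    obtain ⟨m, hm⟩ : ∃ m, ∀ s : S, (Finset.univ.filter (fun x => φ x = s)).card = m := ⟨_, fun s => hfib s (φ x0)⟩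
    have hc1 : Fintype.card Ω = Fintype.card S * m := by
      rw [← Finset.card_univ, Finset.card_eq_sum_card_fiberwise (f := φ) (t := Finset.univ) (fun _ _ => Finset.mem_coe.2 (Finset.mem_univ _)),
        Finset.sum_congr rfl (fun s _ => hm s), Finset.sum_const, smul_eq_mul, Finset.card_univ]
    have hc2 : Γ.card = ((Γᶜ).image φ)ᶜ.card * m := by
      rw [Finset.card_eq_sum_card_fiberwise (f := φ) (t := ((Γᶜ).image φ)ᶜ) (fun x hx => by
        rw [Finset.mem_coe, Finset.mem_compl]; exact hΓ x hx)]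
      rw [Finset.sum_congr rfl (fun s hs => ?_), Finset.sum_const, smul_eq_mul]
      rw [← hm s]
      congr 1
      ext x
      simp only [Finset.mem_filter, Finset.mem_univ, true_and, and_iff_right_iff_imp]
      intro hx
      exact hmem s (Finset.mem_compl.1 hs) x hx
    rw [hc1, hc2] at hΓ2
    have h5 : 2 * ((Γᶜ).image φ)ᶜ.card * m < Fintype.card S * m := by
      calc 2 * ((Γᶜ).image φ)ᶜ.card * m = 2 * (((Γᶜ).image φ)ᶜ.card * m) := by ring
        _ < _ := hΓ2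
    have h6 := Nat.lt_of_mul_lt_mul_right h5
    rw [Finset.card_compl] at h6
    have h7 : ((Γᶜ).image φ).card ≤ Fintype.card S := Finset.card_le_univ _
    omega
  · by_contra hcon
    push Not at hcon
    apply hj01
    apply hfaith
    intro s
    by_cases hs : s ∈ (Γᶜ).image φ
    · exact hfixD j0 hj0 s hs
    · have h8 : ((Γᶜ).image φ)ᶜ.card ≤ 1 := by rw [Finset.card_compl]; omega
      have h9 : j0 • s ∉ (Γᶜ).image φ := by
        intro h
        have h10 : j0⁻¹ • (j0 • s) = j0 • s := by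
          rw [inv_smul_eq_iff, hfixD j0 hj0 _ h]
        rw [inv_smul_smul] at h10
        exact hs (h10 ▸ h)
      exact Finset.card_le_one.1 h8 _ (Finset.mem_compl.2 h9) _ (Finset.mem_compl.2 hs)


/-- the fibres are trivial -/
theorem fibre (φ : Ω → S) (hφ : ∀ (g : G) x, φ (g • x) = g • φ x)
    (hfaith : ∀ g : G, (∀ s : S, g • s = s) → g = 1)
    (hqp : ∀ N : Subgroup G, N.Normal → N ≠ ⊥ → ∀ x y : Ω, ∃ n ∈ N, n • x = y)
    (Γ : Finset Ω) (hΓ1 : 1 < Γ.card)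
    (hJ : ∀ x y, x ∈ Γ → y ∈ Γ → ∃ g : G, (∀ d, d ∉ Γ → g • d = d) ∧ g • x = y)
    (D : Finset S) (hD3 : 3 ≤ D.card) (hDΓ : ∀ x, x ∈ Γ ↔ φ x ∉ D) (hsur : Function.Surjective φ)
    (hEv : Ev G S) : ∀ s0 ∈ D, ∀ x y : Ω, φ x = s0 → φ y = s0 → x = y := by
  classical
  intro s0 hs0 x y hx hy
  -- the element `j`
  obtain ⟨x0, hx0, y0, hy0, hxy0⟩ := Finset.one_lt_card.1 hΓ1
  obtain ⟨j0, hj0, hj0x⟩ := hJ x0 y0 hx0 hy0
  have hj01 : j0 ≠ 1 := by
    rintro rfl
    rw [one_smul] at hj0x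
    exact hxy0 hj0x
  have hj0D : ∀ d ∈ D, j0 • d = d := by
    intro d hd
    obtain ⟨z, rfl⟩ := hsur d
    rw [← hφ, hj0 z (fun h => (hDΓ z).1 h hd)]
  obtain ⟨C, hC⟩ : ∃ C : S, j0 • C ≠ C := by
    by_contra h
    push Not at h
    exact hj01 (hfaith j0 h)
  have hCD : C ∉ D := fun h => hC (hj0D C h)
  have hjCD : j0 • C ∉ D := by
    intro h
    have h10 : j0⁻¹ • (j0 • C) = j0 • C := by
      rw [inv_smul_eq_iff, hj0D _ h]
    rw [inv_smul_smul] at h10
    exact hC h10.symm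
  -- two further points
  obtain ⟨d1, hd1, d2, hd2, hd12⟩ := Finset.one_lt_card.1 (show 1 < (D.erase s0).card by rw [Finset.card_erase_of_mem hs0]; omega)
  rw [mem_erase] at hd1 hd2
  have hCd1 : C ≠ d1 := fun h => hCD (h ▸ hd1.2)
  have hCd2 : C ≠ d2 := fun h => hCD (h ▸ hd2.2)
  have hCs0 : C ≠ s0 := fun h => hCD (h ▸ hs0)
  have hjCs0 : j0 • C ≠ s0 := fun h => hjCD (h ▸ hs0)
  have hjCd1 : j0 • C ≠ d1 := fun h => hjCD (h ▸ hd1.2)
  obtain ⟨t, ht⟩ := hEv (Equiv.swap C d2 * Equiv.swap C d1) (by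
    rw [map_mul, Equiv.Perm.sign_swap hCd2, Equiv.Perm.sign_swap hCd1]; decide)
  have ht' : ∀ z, t • z = Equiv.swap C d2 (Equiv.swap C d1 z) := fun z => DFunLike.congr_fun ht z
  have htC : t • C = d1 := by
    rw [ht', Equiv.swap_apply_left, Equiv.swap_apply_of_ne_of_ne hCd1.symm hd12]
  have htf : ∀ z, z ≠ C → z ≠ d1 → z ≠ d2 → t • z = z := by
    intro z h1 h2 h3
    rw [ht', Equiv.swap_apply_of_ne_of_ne h1 h2, Equiv.swap_apply_of_ne_of_ne h1 h3]
  have hts0 : t • s0 = s0 := htf s0 hCs0.symm hd1.1.symm hd2.1.symm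
  obtain ⟨hkey, -⟩ := comm_key j0 t C D (({C, d1, d2} : Finset S)ᶜ) hj0D (by
    intro z hz
    rw [mem_compl, mem_insert, mem_insert, mem_singleton, not_or, not_or] at hz
    exact htf z hz.1 hz.2.1 hz.2.2) (by
    intro z hz1 hz2
    rw [mem_compl, not_not, mem_insert, mem_insert, mem_singleton] at hz2
    rcases hz2 with rfl | rfl | rfl
    · rfl
    · exact absurd hd1.2 hz1
    · exact absurd hd2.2 hz1) hC (by rw [htC]; exact hCd1.symm) hCD (by
    rw [mem_compl, not_not]; exact mem_insert_self _ _)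
  rw [htC] at hkey
  -- the subgroup `T`
  let T : Subgroup (Equiv.Perm {z : S // z ≠ s0}) :=
    { carrier := {ρ | ∃ h : G, (∀ z, φ z = s0 → h • z = z) ∧ ∀ z : {z : S // z ≠ s0}, h • (z : S) = ρ z}
      one_mem' := ⟨1, fun z _ => one_smul _ _, fun z => one_smul _ _⟩
      mul_mem' := by
        rintro ρ ρ' ⟨h, h1, h2⟩ ⟨h', h1', h2'⟩
        refine ⟨h * h', fun z hz => ?_, fun z => ?_⟩
        · rw [mul_smul, h1' z hz, h1 z hz]
        · rw [mul_smul, h2', h2]; rfl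
      inv_mem' := by
        rintro ρ ⟨h, h1, h2⟩
        refine ⟨h⁻¹, fun z hz => ?_, fun z => ?_⟩
        · rw [inv_smul_eq_iff, h1 z hz]
        · rw [inv_smul_eq_iff, h2, ← Equiv.Perm.mul_apply, mul_inv_cancel, Equiv.Perm.one_apply] }
  have hTmem : ∀ ρ, ρ ∈ T ↔ ∃ h : G, (∀ z, φ z = s0 → h • z = z) ∧ ∀ z : {z : S // z ≠ s0}, h • (z : S) = ρ z := fun ρ => Iff.rfl
  have hTn : ∀ τ : Equiv.Perm {z : S // z ≠ s0}, Equiv.Perm.sign τ = 1 → ∀ ρ ∈ T, τ * ρ * τ⁻¹ ∈ T := by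
    intro τ hτ ρ hρ
    obtain ⟨h, h1, h2⟩ := (hTmem ρ).1 hρ
    obtain ⟨g, hg⟩ := hEv (Equiv.Perm.ofSubtype τ) (by rw [Equiv.Perm.sign_ofSubtype]; exact hτ)
    have hg1 : ∀ z : {z : S // z ≠ s0}, g • (z : S) = τ z := by
      intro z
      have h3 := DFunLike.congr_fun hg (z : S)
      rw [Equiv.Perm.ofSubtype_apply_coe] at h3
      exact h3
    have hg0 : g • s0 = s0 := by
      have h3 := DFunLike.congr_fun hg s0
      rw [Equiv.Perm.ofSubtype_apply_of_not_mem τ (by simp)] at h3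
      exact h3
    have hg2 : ∀ z : {z : S // z ≠ s0}, g⁻¹ • (z : S) = (τ⁻¹ z : {z : S // z ≠ s0}) := by
      intro z
      rw [inv_smul_eq_iff, hg1, ← Equiv.Perm.mul_apply, mul_inv_cancel, Equiv.Perm.one_apply]
    refine (hTmem _).2 ⟨g * h * g⁻¹, fun z hz => ?_, fun z => ?_⟩
    · rw [mul_smul, mul_smul, h1 (g⁻¹ • z) (by rw [hφ, hz, inv_smul_eq_iff, hg0]), smul_inv_smul]
    · rw [mul_smul, mul_smul, hg2, h2, hg1]; rfl
  have hT3 : Equiv.swap (⟨C, hCs0⟩ : {z : S // z ≠ s0}) ⟨d1, hd1.1⟩ * Equiv.swap (⟨C, hCs0⟩ : {z : S // z ≠ s0}) ⟨j0 • C, hjCs0⟩ ∈ T := by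
    refine (hTmem _).2 ⟨j0 * t * j0⁻¹ * t⁻¹, fun z hz => ?_, fun z => ?_⟩
    · have hzΓ : ∀ w, φ w = s0 → j0 • w = w := fun w hw => hj0 w (fun h => (hDΓ w).1 h (hw ▸ hs0))
      have htz : φ (t⁻¹ • z) = s0 := by rw [hφ, hz, inv_smul_eq_iff, hts0]
      have h5 : j0⁻¹ • (t⁻¹ • z) = t⁻¹ • z := by rw [inv_smul_eq_iff, hzΓ _ htz]
      rw [mul_smul, mul_smul, mul_smul, h5, smul_inv_smul, hzΓ z hz]
    · have h3 := DFunLike.congr_fun hkey (z : S)
      rw [MulAction.toPerm_apply] at h3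
      rw [h3, Equiv.Perm.mul_apply, Equiv.Perm.mul_apply]
      rw [← Function.Injective.swap_apply Subtype.val_injective, ← Function.Injective.swap_apply Subtype.val_injective]
  have hTall := alt_le T hTn (fun h => hCd1 (congrArg Subtype.val h)) (fun h => hC (congrArg Subtype.val h).symm)
    (fun h => hjCd1 (congrArg Subtype.val h).symm) hT3
  -- the even elements
  obtain ⟨n, hn, hnxy⟩ := hqp ((Equiv.Perm.sign).comp (MulAction.toPermHom G S)).ker inferInstance (by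
    intro h
    have h2 : t ∈ ((Equiv.Perm.sign).comp (MulAction.toPermHom G S)).ker := by
      rw [MonoidHom.mem_ker, MonoidHom.comp_apply]
      change Equiv.Perm.sign (MulAction.toPerm t) = 1
      rw [ht, map_mul, Equiv.Perm.sign_swap hCd2, Equiv.Perm.sign_swap hCd1]; decide
    rw [h] at h2
    rw [Subgroup.mem_bot.1 h2, one_smul] at htC
    exact hCd1 htC) x y
  rw [MonoidHom.mem_ker, MonoidHom.comp_apply] at hn
  change Equiv.Perm.sign (MulAction.toPerm n) = 1 at hn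
  have hn0 : n • s0 = s0 := by
    conv_lhs => rw [← hx]
    rw [← hφ, hnxy, hy]
  have hnp : ∀ z, (MulAction.toPerm n : Equiv.Perm S) z ≠ s0 ↔ z ≠ s0 := by
    intro z
    rw [MulAction.toPerm_apply, not_iff_not]
    constructor
    · intro h
      rw [← hn0] at h
      exact MulAction.injective n h
    · rintro rfl; exact hn0
  obtain ⟨h, h1, h2⟩ := (hTmem _).1 (hTall ((MulAction.toPerm n : Equiv.Perm S).subtypePerm hnp) (by
    rw [Equiv.Perm.sign_subtypePerm _ hnp]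
    · exact hn
    · intro z hz h
      rw [h] at hz
      exact hz hn0))
  have h3 : n⁻¹ * h = 1 := by
    apply hfaith
    intro s
    rw [mul_smul, inv_smul_eq_iff]
    by_cases hs : s = s0
    · rw [hs, hn0]
      conv_lhs => rw [← hx]
      rw [← hφ, h1 x hx, hx]
    · exact h2 ⟨s, hs⟩
  have h4 : h = n := by
    rw [inv_mul_eq_one] at h3; exact h3.symm
  rw [← hnxy, ← h4, h1 x hx]

/-- the quasiprimitive case, given a primitive quotient -/
theorem quasi (φ : Ω → S) (hφ : ∀ (g : G) x, φ (g • x) = g • φ x) (hsur : Function.Surjective φ)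
    (hprim : IsPreprimitive G S) (hnt : Nontrivial S)
    (htr : ∀ x y : Ω, ∃ g : G, g • x = y)
    (hqp : ∀ N : Subgroup G, N.Normal → N ≠ ⊥ → ∀ x y : Ω, ∃ n ∈ N, n • x = y)
    (Γ : Finset Ω) (hΓ1 : 1 < Γ.card) (hΓ2 : 2 * Γ.card < Fintype.card Ω)
    (hJ : ∀ x y, x ∈ Γ → y ∈ Γ → ∃ g : G, (∀ d, d ∉ Γ → g • d = d) ∧ g • x = y) : Ev G Ω := by
  have hfaith := faithful_S φ hφ hsur hnt hqp
  obtain ⟨D, hDJ, hD1, hD2, hDΓ⟩ := quot_jc φ hφ hsur htr hfaith Γ hΓ1 hΓ2 hJ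
  have hT2 : T2 G S := T2_of_prim hprim hDJ (by omega) hD2
  have hEv : Ev G S := marggraf _ S G rfl hT2 D hDJ hD1 hD2
  have hfib := fibre φ hφ hfaith hqp Γ hΓ1 hJ D (by omega) hDΓ hsur hEv
  have hinj : Function.Injective φ := by
    intro x y hxy
    obtain ⟨s0, hs0⟩ := Finset.card_pos.1 (show 0 < D.card by omega)
    obtain ⟨z, hz⟩ := hsur s0
    obtain ⟨g, hg⟩ := htr x z
    have h1 : g • x = g • y := hfib s0 hs0 _ _ (by rw [hg, hz]) (by rw [hφ, ← hxy, ← hφ, hg, hz])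
    exact MulAction.injective g h1
  intro σ hσ
  obtain ⟨g, hg⟩ := hEv ((Equiv.ofBijective φ ⟨hinj, hsur⟩).permCongr σ) (by rw [Equiv.Perm.sign_permCongr]; exact hσ)
  refine ⟨g, ?_⟩
  ext x
  apply hinj
  rw [MulAction.toPerm_apply, hφ]
  have h1 := DFunLike.congr_fun hg (φ x)
  rw [MulAction.toPerm_apply, Equiv.permCongr_apply] at h1
  rw [h1]
  have h2 : (Equiv.ofBijective φ ⟨hinj, hsur⟩).symm (φ x) = x := (Equiv.ofBijective φ ⟨hinj, hsur⟩).symm_apply_apply x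
  rw [h2]
  rfl

end

/-- a primitive quotient exists -/
theorem exists_quot {G Ω : Type*} [Group G] [Finite G] [MulAction G Ω] (htr : ∀ x y : Ω, ∃ g : G, g • x = y) (x0 y0 : Ω) (hxy : x0 ≠ y0) :
    ∃ M : Subgroup G, ∃ φ : Ω → G ⧸ M, (∀ (g : G) x, φ (g • x) = g • φ x) ∧ Function.Surjective φ ∧ IsPreprimitive G (G ⧸ M) ∧ Nontrivial (G ⧸ M) := by
  classical
  have hne : stabilizer G x0 ≠ ⊤ := by
    intro h
    obtain ⟨g, hg⟩ := htr x0 y0
    have h2 : g ∈ stabilizer G x0 := by rw [h]; trivial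
    rw [mem_stabilizer_iff] at h2
    exact hxy (h2.symm.trans hg)
  obtain ⟨M, hM, hle⟩ := (eq_top_or_exists_le_coatom (stabilizer G x0)).resolve_left hne
  choose γ hγ using fun x => htr x0 x
  have hkey : ∀ g x, g • x0 = x → (QuotientGroup.mk (γ x) : G ⧸ M) = QuotientGroup.mk g := by
    intro g x hg
    rw [QuotientGroup.eq]
    apply hle
    rw [mem_stabilizer_iff, mul_smul, hg, inv_smul_eq_iff, hγ]
  have hnt : Nontrivial (G ⧸ M) := by
    obtain ⟨g, hg⟩ : ∃ g, g ∉ M := by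
      by_contra h
      push Not at h
      exact hM.1 (Subgroup.eq_top_iff' M |>.2 h)
    refine ⟨⟨QuotientGroup.mk 1, QuotientGroup.mk g, ?_⟩⟩
    intro h
    rw [QuotientGroup.eq, inv_one, one_mul] at h
    exact hg h
  refine ⟨M, fun x => QuotientGroup.mk (γ x), ?_, ?_, ?_, hnt⟩
  · intro g x
    have h1 : (g * γ x) • x0 = g • x := by rw [mul_smul, hγ]
    exact hkey _ _ h1
  · intro s
    obtain ⟨g, rfl⟩ := QuotientGroup.mk_surjective s
    exact ⟨g • x0, hkey g _ rfl⟩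
  · rw [← isCoatom_stabilizer_iff_preprimitive (G := G) (QuotientGroup.mk (1 : G) : G ⧸ M), stabilizer_quotient]
    exact hM

end CfsgLib.MgH14
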