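import Cfsg.Agent.LibEven27f
import Cfsg.Agent.LibAutPSL27i

set_option autoImplicit false

/-! The minus form: the automorphism group of the quadratic extension acts by semisimilarities. -/

namespace CfsgLib.Min27

open Cfsg.Agent.H22 CfsgLib.Semi27 CfsgLib.Lift27 CfsgLib.RhoO27 CfsgLib.AutO27 CfsgLib.Spinor27 CfsgLib.Even27 CfsgLib.AutPSL27 Module Matrix

section
variable {F K : Type*} [Field F] [Fintype F] [Field K] [Fintype K] [Algebra F K]

local notation "α" => algebraMap F K

theorem exists_restrict (τ : K ≃+* K) : ∃ σ : F ≃+* F, ∀ x, τ (α x) = α (σ x) := by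
  have h1 : ∀ x : F, ∃ y : F, α y = τ (α x) := by
    intro x
    apply (bar_eq_self_iff _).1
    rw [bar_apply, ← map_pow, ← map_pow, FiniteField.pow_card]
  choose s hs using h1
  let σ : F →+* F :=
    { toFun := s
      map_one' := (α).injective (by rw [hs]; simp)
      map_mul' := fun x y => (α).injective (by rw [hs, map_mul, map_mul, map_mul, hs, hs])
      map_zero' := (α).injective (by rw [hs]; simp)
      map_add' := fun x y => (α).injective (by rw [hs, map_add, map_add, map_add, hs, hs]) }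
  exact ⟨RingEquiv.ofBijective σ (Finite.injective_iff_bijective.1 σ.injective), fun x => (hs x).symm⟩

variable {m : ℕ} {a b : F} (θ : K)

/-- the coordinate in the quadratic extension -/
def kap (v : (Fin m ⊕ Fin m) ⊕ Fin 2 → F) : K := α (v (.inr 0)) - θ * α (v (.inr 1))

theorem kap_add (v w : (Fin m ⊕ Fin m) ⊕ Fin 2 → F) : kap θ (v + w) = kap θ v + kap θ w := by
  unfold kap
  rw [Pi.add_apply, Pi.add_apply, map_add, map_add]; ring

theorem kap_smul (c : F) (v : (Fin m ⊕ Fin m) ⊕ Fin 2 → F) : kap θ (c • v) = α c * kap θ v := by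
  unfold kap
  rw [Pi.smul_apply, Pi.smul_apply, smul_eq_mul, smul_eq_mul, map_mul, map_mul]; ring

variable {θ}
variable (hK : Fintype.card K = Fintype.card F ^ 2) (hab : ∀ z₁ z₂ : F, z₁ ^ 2 + a * z₁ * z₂ + b * z₂ ^ 2 = 0 → z₁ = 0 ∧ z₂ = 0)
  (hθ : θ ^ 2 + algebraMap F K a * θ + algebraMap F K b = 0)

include hab hθ in
theorem alg_Q (v : (Fin m ⊕ Fin m) ⊕ Fin 2 → F) : α (qMinus m F a b v) = ∑ i, α (v (.inl (.inl i))) * α (v (.inl (.inr i))) + kap θ v * bar F (kap θ v) := by
  unfold kap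
  rw [norm_theta hab hθ, coe_qMinus]
  unfold Cfsg.quadFormMinus
  rw [map_add, map_sum]
  simp only [map_mul]

include hK hab hθ in
theorem kap_ext {v w : (Fin m ⊕ Fin m) ⊕ Fin 2 → F} (h1 : ∀ i, v (.inl i) = w (.inl i)) (h2 : kap θ v = kap θ w) : v = w := by
  have h3 := (theta_basis hK (theta_bar hab hθ).1).1
  have h4 : (v (.inr 0), v (.inr 1)) = (w (.inr 0), w (.inr 1)) := h3 h2
  funext i
  rcases i with i | i
  · exact h1 i
  · fin_cases i
    · exact congrArg Prod.fst h4
    · exact congrArg Prod.snd h4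

/-- the relation between automorphisms of the extension and semisimilarities -/
def Rel (θ : K) (τ : K ≃+* K) (x : SP (qMinus m F a b)) : Prop :=
  (∀ c, α (x.1.right c) = τ (α c)) ∧ (∀ v i, act x.1 v (.inl i) = x.1.right (v (.inl i))) ∧ (∀ v, kap θ (act x.1 v) = τ (kap θ v))

include hK hab hθ in
theorem exists_chi : ∃ χ : (K ≃+* K) →* SP (qMinus m F a b), ∀ τ, Rel θ τ (χ τ) := by
  have key : (∀ τ : K ≃+* K, ∃ x : SP (qMinus m F a b), Rel θ τ x) ∧ (∀ x : SP (qMinus m F a b), Rel θ (1 : K ≃+* K) x → x = 1) ∧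
      (∀ (τ τ' : K ≃+* K) (x x' : SP (qMinus m F a b)), Rel θ τ x → Rel θ τ' x' → Rel θ (τ * τ') (x * x')) := by
    refine ⟨?_, ?_, ?_⟩
    · intro τ
      obtain ⟨σ, hσ⟩ := exists_restrict (F := F) τ
      have hbij := theta_basis hK (theta_bar hab hθ).1
      let κ : F × F ≃ K := Equiv.ofBijective _ hbij
      have hκ : ∀ z : K, α (κ.symm z).1 - θ * α (κ.symm z).2 = z := fun z => κ.apply_symm_apply z
      let S : ((Fin m ⊕ Fin m) ⊕ Fin 2 → F) → ((Fin m ⊕ Fin m) ⊕ Fin 2 → F) := fun v =>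
        Sum.elim (fun i => σ (v (.inl i))) ![(κ.symm (τ (kap θ v))).1, (κ.symm (τ (kap θ v))).2]
      have hS1 : ∀ v i, S v (.inl i) = σ (v (.inl i)) := fun v i => rfl
      have hS2 : ∀ v, kap θ (S v) = τ (kap θ v) := fun v => hκ _
      obtain ⟨g, hg⟩ := CfsgLib.FTPG27.exists_matrix σ S (fun v w => by
          apply kap_ext hK hab hθ
          · intro i
            rw [Pi.add_apply, hS1, hS1, hS1, Pi.add_apply, map_add]
          · rw [kap_add, hS2, hS2, hS2, kap_add, map_add]) (fun c v => by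
          apply kap_ext hK hab hθ
          · intro i
            rw [Pi.smul_apply, hS1, hS1, Pi.smul_apply, smul_eq_mul, smul_eq_mul, map_mul]
          · rw [kap_smul, hS2, hS2, kap_smul, map_mul, hσ]) (fun v hv => by
          apply kap_ext hK hab hθ
          · intro i
            have h1 : S v (.inl i) = 0 := by rw [hv]; rfl
            rw [hS1, map_eq_zero_iff σ σ.injective] at h1
            rw [h1]; rfl
          · have h1 : kap θ (S v) = 0 := by rw [hv]; simp [kap]
            rw [hS2, map_eq_zero_iff τ τ.injective] at h1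
            rw [h1]; simp [kap])
      have hact : ∀ v, act (⟨g, σ⟩ : GamL ((Fin m ⊕ Fin m) ⊕ Fin 2) F) v = S v := fun v => (hg v).symm
      have hmem : (⟨g, σ⟩ : GamL ((Fin m ⊕ Fin m) ⊕ Fin 2) F) ∈ SP (qMinus m F a b) := by
        refine ⟨1, fun v => ?_⟩
        rw [hact, Units.val_one, one_mul]
        apply (α).injective
        show _ = α (σ _)
        rw [← hσ, alg_Q hab hθ, alg_Q hab hθ, map_add, map_sum, map_mul, hS2]
        simp only [hS1, map_mul, hσ]
        rw [bar_apply, bar_apply, map_pow]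
      refine ⟨⟨_, hmem⟩, fun c => (hσ c).symm, fun v i => ?_, fun v => ?_⟩
      · show act (⟨g, σ⟩ : GamL ((Fin m ⊕ Fin m) ⊕ Fin 2) F) v (.inl i) = σ _
        rw [hact, hS1]
      · show kap θ (act (⟨g, σ⟩ : GamL ((Fin m ⊕ Fin m) ⊕ Fin 2) F) v) = _
        rw [hact, hS2]
    · rintro x ⟨h1, h2, h3⟩
      have hr : x.1.right = 1 := by
        ext c
        apply (α).injective
        exact h1 c
      have ha : ∀ v, act x.1 v = v := by
        intro v
        apply kap_ext hK hab hθ
        · intro i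
          rw [h2, hr]; rfl
        · exact h3 v
      apply Subtype.ext
      apply SemidirectProduct.ext
      · apply gl_ext
        intro v
        have := ha v
        unfold act at this
        rw [hr] at this
        show _ = ((1 : GL ((Fin m ⊕ Fin m) ⊕ Fin 2) F) : Matrix ((Fin m ⊕ Fin m) ⊕ Fin 2) ((Fin m ⊕ Fin m) ⊕ Fin 2) F) *ᵥ v
        rw [Units.val_one, one_mulVec]
        exact this
      · exact hr
    · rintro τ τ' x x' ⟨h1, h2, h3⟩ ⟨h1', h2', h3'⟩
      refine ⟨fun c => ?_, fun v i => ?_, fun v => ?_⟩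
      · show α (x.1.right (x'.1.right c)) = τ (τ' (α c))
        rw [h1, h1']
      · show act (x.1 * x'.1) v (.inl i) = x.1.right (x'.1.right _)
        rw [act_mul, h2, h2']
      · show kap θ (act (x.1 * x'.1) v) = τ (τ' _)
        rw [act_mul, h3, h3']
  obtain ⟨χ, hχ⟩ := exists_hom_of_rel (A := K ≃+* K) (B := SP (qMinus m F a b)) (Rel θ) key.1 key.2.1 key.2.2
  exact ⟨χ, fun τ => (hχ τ _).2 rfl⟩

/-- the involution as a ring automorphism -/
noncomputable def barE (F : Type*) {K : Type*} [Field F] [Fintype F] [Field K] [Fintype K] [Algebra F K] : K ≃+* K :=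
  RingEquiv.ofBijective ((bar F : K →ₐ[F] K) : K →+* K) (Finite.injective_iff_bijective.1 (fun _ _ h => bar_inj h))

theorem barE_apply (z : K) : barE F z = bar F z := rfl

theorem act_one_right {ι : Type} [Fintype ι] [DecidableEq ι] {x : GamL ι F} (h : x.right = 1) (v : ι → F) : act x v = (x.left : Matrix ι ι F) *ᵥ v := by
  unfold act
  rw [h]; rfl

include hab hK hθ in
/-- the involution acts as a reflection -/
theorem chi_bar {x : SP (qMinus m F a b)} (hx : Rel θ (barE F : K ≃+* K) x) : x.1.right = 1 ∧ ∃ (v : (Fin m ⊕ Fin m) ⊕ Fin 2 → F) (hv : qMinus m F a b v ≠ 0),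
    x.1.left = ((rfM _ v hv : Cfsg.isometryGroup F ⇑(qMinus m F a b)) : GL ((Fin m ⊕ Fin m) ⊕ Fin 2) F) := by
  obtain ⟨h1, h2, h3⟩ := hx
  have hr : x.1.right = 1 := by
    ext c
    apply (α).injective
    rw [h1, barE_apply, bar_alg]; rfl
  have hd := disc_ne_zero a b hab
  obtain ⟨d, hdd⟩ : ∃ d : (Fin m ⊕ Fin m) ⊕ Fin 2 → F, d = Sum.elim (0 : Fin m ⊕ Fin m → F) ![a, -2] := ⟨_, rfl⟩
  have d0 : d (.inr 0) = a := by rw [hdd]; rfl
  have d1 : d (.inr 1) = -2 := by rw [hdd]; rfl
  have dl : ∀ i, d (.inl i) = 0 := by intro i; rw [hdd]; rfl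
  have hQd : qMinus m F a b d = -(a ^ 2 - 4 * b) := by
    rw [coe_qMinus]
    unfold Cfsg.quadFormMinus
    simp only [dl, d0, d1, mul_zero, Finset.sum_const_zero, zero_add]
    ring
  have hQ0 : qMinus m F a b d ≠ 0 := by rw [hQd]; exact neg_ne_zero.2 hd
  refine ⟨hr, d, hQ0, ?_⟩
  apply gl_ext
  intro v
  rw [rfM_mulVec]
  have hB : QuadraticMap.polar (qMinus m F a b) d v = (a ^ 2 - 4 * b) * v (.inr 1) := by
    rw [polar_qMinus]
    simp only [dl, d0, d1, zero_mul, Finset.sum_const_zero, zero_add]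
    ring
  have hc : (qMinus m F a b d)⁻¹ * QuadraticMap.polar (qMinus m F a b) d v = - v (.inr 1) := by
    rw [hB, hQd]
    field_simp
  rw [hc, ← act_one_right hr]
  apply kap_ext hK hab hθ
  · intro i
    rw [h2, hr, Pi.sub_apply, Pi.smul_apply, dl, smul_zero, sub_zero]; rfl
  · rw [h3, barE_apply]
    unfold kap
    rw [map_sub, map_mul, bar_alg, bar_alg, (theta_bar hab hθ).2.1, Pi.sub_apply, Pi.sub_apply, Pi.smul_apply, Pi.smul_apply, d0, d1, smul_eq_mul, smul_eq_mul,
      map_sub, map_sub, map_mul, map_mul, map_neg, map_neg, map_ofNat]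
    ring

include hab hK hθ in
/-- an automorphism of the extension trivial on the small field -/
theorem fix_cases (τ : K ≃+* K) (hτ : ∀ c : F, τ (α c) = α c) : τ = 1 ∨ τ = barE F := by
  have h1 : (τ θ) ^ 2 + α a * τ θ + α b = 0 := by
    have := congrArg τ hθ
    rw [map_add, map_add, map_mul, map_pow, map_zero, hτ, hτ] at this
    exact this
  obtain ⟨h2, h3, h4⟩ := theta_bar hab hθ
  have h5 : (τ θ - θ) * (τ θ - bar F θ) = 0 := by
    rw [h3]; linear_combination h1 - hθ
  have hbij := theta_basis hK h2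
  rcases mul_eq_zero.1 h5 with h6 | h6
  · left
    apply RingEquiv.ext
    intro z
    obtain ⟨⟨x, y⟩, rfl⟩ := hbij.2 z
    show τ (α x - θ * α y) = α x - θ * α y
    rw [map_sub, map_mul, hτ, hτ, sub_eq_zero.1 h6]
  · right
    apply RingEquiv.ext
    intro z
    obtain ⟨⟨x, y⟩, rfl⟩ := hbij.2 z
    show τ (α x - θ * α y) = bar F (α x - θ * α y)
    rw [map_sub, map_mul, hτ, hτ, sub_eq_zero.1 h6, map_sub, map_mul, bar_alg, bar_alg]

include hab hK hθ in
theorem res_surj {χ : (K ≃+* K) →* SP (qMinus m F a b)} (hχ : ∀ τ, Rel θ τ (χ τ)) (σ : F ≃+* F) : ∃ τ, (χ τ).1.right = σ := by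
  let res : (K ≃+* K) →* (F ≃+* F) := (SemidirectProduct.rightHom : GamL ((Fin m ⊕ Fin m) ⊕ Fin 2) F →* (F ≃+* F)).comp ((SP (qMinus m F a b)).subtype.comp χ)
  have hres : ∀ τ, res τ = (χ τ).1.right := fun τ => rfl
  obtain ⟨p, hp⟩ := CharP.exists F
  haveI : Fact p.Prime := ⟨CharP.char_is_prime F p⟩
  obtain ⟨⟨f, hf⟩, -, hcard⟩ := FiniteField.card F p
  have hcF := ringAut_cyclic (F := F) p f (by rw [Nat.card_eq_fintype_card, hcard]; rfl)
  have hcK := ringAut_cyclic (F := K) p (f * 2) (by rw [Nat.card_eq_fintype_card, hK, hcard, ← pow_mul]; rfl)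
  have hker : res.ker = Subgroup.zpowers (barE F : K ≃+* K) := by
    ext τ
    rw [MonoidHom.mem_ker, hres]
    constructor
    · intro h
      rcases fix_cases hK hab hθ τ (fun c => by rw [← (hχ τ).1, h]; rfl) with h1 | h1
      · rw [h1]; exact one_mem _
      · rw [h1]; exact Subgroup.mem_zpowers _
    · intro h
      have h1 : (χ (barE F)).1.right = 1 := (chi_bar hK hab hθ (hχ _)).1
      obtain ⟨k, rfl⟩ := Subgroup.mem_zpowers_iff.1 h
      rw [← hres, map_zpow, hres, h1, _root_.one_zpow]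
  have ho : orderOf (barE F : K ≃+* K) = 2 := by
    apply orderOf_eq_prime
    · apply RingEquiv.ext
      intro z
      show bar F (bar F z) = z
      exact bar_bar hK z
    · intro h
      obtain ⟨h2, -, -⟩ := theta_bar hab hθ
      obtain ⟨x, hx⟩ := (bar_eq_self_iff (F := F) θ).1 (congrArg (fun τ : K ≃+* K => τ θ) h)
      exact h2 x hx
  have h1 := Subgroup.card_mul_index res.ker
  rw [hker, Nat.card_zpowers, ho, ← hker, Subgroup.index_ker, hcK.2] at h1
  haveI : Finite (F ≃+* F) := Nat.finite_of_card_ne_zero (by rw [hcF.2]; omega)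
  have hsurj : res.range = ⊤ := by
    apply Subgroup.eq_top_of_card_eq
    rw [hcF.2]
    omega
  obtain ⟨τ, hτ⟩ : σ ∈ res.range := by rw [hsurj]; trivial
  exact ⟨τ, hτ⟩

end

end CfsgLib.Min27
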