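import Cfsg.Agent.LibMin27a

set_option autoImplicit false

/-! The outer automorphism groups of the minus-type groups. -/

namespace CfsgLib.Min27

open Cfsg.Agent.H22 CfsgLib.Semi27 CfsgLib.Lift27 CfsgLib.RhoO27 CfsgLib.AutO27 CfsgLib.Spinor27 CfsgLib.Even27 CfsgLib.AutPSL27 Module Matrix

theorem grp_aux {G H : Type*} [Group G] [Group H] (P : G →* H) (Y B T : G) (h1 : P (Y * B) = 1) (hB : B * B = 1) : P (Y * T) = P (B * T) := by
  have h3 : Y = (Y * B) * B := by rw [mul_assoc, hB, mul_one]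
  rw [h3, map_mul, map_mul, h1, one_mul, map_mul]

section gen
variable {F : Type*} [Field F] [Fintype F] {ι : Type} [Fintype ι] [DecidableEq ι] {Q : QuadraticForm F (ι → F)} {n : ℕ}

theorem par_omega (hQ : (QuadraticMap.polarBilin Q).Nondegenerate) (hF : (∃ a : F, a ≠ 0 ∧ a ≠ 1) ∨ finrank F (ι → F) ≠ 4) (s : Cfsg.Omega F ⇑Q) :
    par hQ hF (oIso Q s.1) = 1 := by
  have h1 := Abelianization.commutator_subset_ker ((par hQ hF).comp (oIso Q : Cfsg.isometryGroup F ⇑Q →* OGrp Q))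
  exact h1 s.2

theorem par_negI (hQ : (QuadraticMap.polarBilin Q).Nondegenerate) (hF : (∃ a : F, a ≠ 0 ∧ a ≠ 1) ∨ finrank F (ι → F) ≠ 4)
    (hn : Fintype.card ι = 2 * n) : par hQ hF (oIso Q (negI Q)) = 1 := by
  have happ : ∀ x, (oIso Q (negI Q)).1 x = -x := by
    intro x
    show ((scal (-1) : GL ι F) : Matrix ι ι F) *ᵥ x = -x
    rw [scal_mulVec]; simp
  show parFun _ = 1
  unfold parFun
  have hfr : finrank F (ι → F) = 2 * n := by rw [Module.finrank_pi, hn]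
  by_cases h2 : (2 : F) = 0
  · have : fixSp (oIso Q (negI Q)) = ⊤ := by
      rw [eq_top_iff]
      intro x _
      show (oIso Q (negI Q)).1 x = x
      rw [happ, neg_eq_iff_add_eq_zero, ← two_smul F x, h2, zero_smul]
    rw [this, finrank_top, ← two_mul, pow_mul]; simp
  · have : fixSp (oIso Q (negI Q)) = ⊥ := by
      rw [eq_bot_iff]
      intro x hx
      have hx' : (oIso Q (negI Q)).1 x = x := hx
      rw [happ, neg_eq_iff_add_eq_zero, ← two_smul F x] at hx'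
      rw [Submodule.mem_bot]
      exact (smul_eq_zero.1 hx').resolve_left h2
    rw [this, finrank_bot, hfr, zero_add, pow_mul]; simp

theorem scal_cases' (hx : ∃ x, Q x ≠ 0) {a : Fˣ} {s s' : Cfsg.isometryGroup F ⇑Q} (hs : (s : GL ι F) = scal a * (s' : GL ι F)) :
    s = s' ∨ s = negI Q * s' := by
  obtain ⟨x, hx⟩ := hx
  have e1 : Q (((s : GL ι F) : Matrix ι ι F) *ᵥ x) = Q x := (mem_isometryGroup Q).1 s.2 x
  rw [hs, scal_mul_mulVec, qsmul, (mem_isometryGroup Q).1 s'.2] at e1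
  have h1 : ((a : F) - 1) * (a + 1) = 0 := by
    have h3 : ((a : F) * a - 1) * Q x = 0 := by linear_combination e1
    have h4 := (mul_eq_zero.1 h3).resolve_right hx
    linear_combination h4
  rcases mul_eq_zero.1 h1 with h4 | h4
  · left
    have hab : a = 1 := Units.ext (sub_eq_zero.1 h4)
    apply Subtype.ext
    rw [hs, hab, scal_one, one_mul]
  · right
    have hab : a = -1 := by
      apply Units.ext
      rw [Units.val_neg, Units.val_one]
      linear_combination h4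
    apply Subtype.ext
    rw [hs, hab, Subgroup.coe_mul, negI_coe]

/-- inner automorphisms come from even isometries -/
theorem par_inn (hQ : (QuadraticMap.polarBilin Q).Nondegenerate) (hF : (∃ a : F, a ≠ 0 ∧ a ≠ 1) ∨ finrank F (ι → F) ≠ 4)
    (hn : Fintype.card ι = 2 * n) (hx : ∃ x, Q x ≠ 0) {g : Cfsg.isometryGroup F ⇑Q} {a : Fˣ} {s : Cfsg.Omega F ⇑Q}
    (h : (g : GL ι F) = scal a * ((s : Cfsg.isometryGroup F ⇑Q) : GL ι F)) : par hQ hF (oIso Q g) = 1 := by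
  rcases scal_cases' hx h with h1 | h1
  · rw [h1, par_omega hQ hF]
  · rw [h1, map_mul, map_mul, par_negI hQ hF hn, par_omega hQ hF, one_mul]

/-- similarities in characteristic two -/
theorem two_split [CharP F 2] {g : GL ι F} (hg : g ∈ GOs Q) : ∃ (s : Fˣ) (t : Cfsg.isometryGroup F ⇑Q), g = scal s * (t : GL ι F) := by
  obtain ⟨c, hc⟩ := hg
  obtain ⟨s, hs⟩ : IsSquare (c : F) := FiniteField.isSquare_of_char_two (ringChar.eq F 2) _
  have hs0 : s ≠ 0 := by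
    rintro rfl
    rw [mul_zero] at hs
    exact c.ne_zero hs
  have hd : ∀ v, Q (((scal (Units.mk0 s hs0) : GL ι F) : Matrix ι ι F) *ᵥ v) = c * Q v := by
    intro v
    rw [scal_mulVec, qsmul, hs]; rfl
  obtain ⟨t, ht⟩ := iso_of_sim hc hd
  exact ⟨Units.mk0 s hs0, t, by rw [ht, scal_comm]⟩

theorem two_omega [CharP F 2] (hQ : (QuadraticMap.polarBilin Q).Nondegenerate) (hF : (∃ a : F, a ≠ 0 ∧ a ≠ 1) ∨ finrank F (ι → F) ≠ 4)
    (hx : ∃ x, Q x ≠ 0) (t : Cfsg.isometryGroup F ⇑Q) : t ∈ Cfsg.Omega F ⇑Q ↔ par hQ hF (oIso Q t) = 1 := by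
  obtain ⟨x, hx⟩ := hx
  have hx0 : x ≠ 0 := by
    rintro rfl
    exact hx (map_zero Q)
  rw [mem_omega_mat]
  exact (omega_even hQ hF ⟨x, hx0⟩).2 _

end gen

section
variable {F K : Type*} [Field F] [Fintype F] [Field K] [Fintype K] [Algebra F K]

local notation "α" => algebraMap F K

variable {m : ℕ} {a b : F} {θ : K}
variable (hK : Fintype.card K = Fintype.card F ^ 2) (hab : ∀ z₁ z₂ : F, z₁ ^ 2 + a * z₁ * z₂ + b * z₂ ^ 2 = 0 → z₁ = 0 ∧ z₂ = 0)
  (hθ : θ ^ 2 + algebraMap F K a * θ + algebraMap F K b = 0)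
variable {χ : (K ≃+* K) →* SP (qMinus m F a b)} (hχ : ∀ τ, Rel θ τ (χ τ))
variable {e f : Fin 3 → ((Fin m ⊕ Fin m) ⊕ Fin 2 → F)} {u : (Fin m ⊕ Fin m) ⊕ Fin 2 → F} (hG : Good (qMinus m F a b) e f u)

/-- the map to the outer automorphism group -/
noncomputable def pj {ι : Type} [Fintype ι] [DecidableEq ι] (Q : QuadraticForm F (ι → F)) : SP Q →* Cfsg.Out (Cfsg.POmega F ⇑Q) :=
  (QuotientGroup.mk' (Cfsg.Inn (Cfsg.POmega F ⇑Q))).comp (CfsgLib.RhoO27.R Q)

theorem pj_eq_one {ι : Type} [Fintype ι] [DecidableEq ι] {Q : QuadraticForm F (ι → F)} {e f : Fin 3 → (ι → F)} {u : ι → F} (hG : Gd Q e f u) (x : SP Q) :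
    pj Q x = 1 ↔ x.1.right = 1 ∧ ∃ (a : Fˣ) (s : Cfsg.Omega F ⇑Q), x.1.left = scal a * ((s : Cfsg.isometryGroup F ⇑Q) : GL ι F) := by
  rw [← mem_inn' hG]
  exact QuotientGroup.eq_one_iff _

theorem pj_surj {ι : Type} [Fintype ι] [DecidableEq ι] {Q : QuadraticForm F (ι → F)} {e f : Fin 3 → (ι → F)} {u : ι → F} (hG : Good Q e f u) :
    Function.Surjective (pj Q) := (QuotientGroup.mk'_surjective _).comp (R_surj hG)

theorem minus_hx : ∃ x, qMinus m F a b x ≠ 0 := by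
  refine ⟨Sum.elim (0 : Fin m ⊕ Fin m → F) ![1, 0], ?_⟩
  rw [coe_qMinus]
  unfold Cfsg.quadFormMinus
  simp

theorem minus_card : Fintype.card ((Fin m ⊕ Fin m) ⊕ Fin 2) = 2 * (m + 1) := by simp; omega

include hK hab hθ hχ hG in
theorem iota_inj : Function.Injective ((pj (qMinus m F a b)).comp χ) := by
  have hQ := nondeg_qMinus m a b hab
  have hF : (∃ a : F, a ≠ 0 ∧ a ≠ 1) ∨ finrank F ((Fin m ⊕ Fin m) ⊕ Fin 2 → F) ≠ 4 := hG.hF
  rw [injective_iff_map_eq_one]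
  intro τ hτ
  have hτ' : pj (qMinus m F a b) (χ τ) = 1 := hτ
  rw [pj_eq_one hG.gd] at hτ'
  obtain ⟨hr, c, s, hs⟩ := hτ'
  rcases fix_cases hK hab hθ τ (fun c => by rw [← (hχ τ).1, hr]; rfl) with h | h
  · exact h
  · exfalso
    rw [h] at hs
    obtain ⟨-, v, hv, hl⟩ := chi_bar hK hab hθ (hχ (barE F))
    rw [hl] at hs
    have h1 := par_inn hQ hF minus_card minus_hx hs
    unfold rfM at h1
    rw [MulEquiv.apply_symm_apply, par_refl] at h1
    exact absurd h1 (by decide)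

include hK hab hθ hχ in
/-- every semisimilarity is a similarity times a standard element -/
theorem sp_split (x : SP (qMinus m F a b)) : ∃ (g : GOs (qMinus m F a b)) (τ : K ≃+* K), x = ⟨SemidirectProduct.inl g.1, inl_mem_iff.2 g.2⟩ * χ τ := by
  obtain ⟨τ, hτ⟩ := res_surj hK hab hθ hχ x.1.right
  obtain ⟨y, hy⟩ : ∃ y, y = x * (χ τ)⁻¹ := ⟨_, rfl⟩
  have hyr : y.1.right = 1 := by
    rw [hy]
    show x.1.right * (χ τ).1.right⁻¹ = 1
    rw [hτ, mul_inv_cancel]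
  have hyl : y.1 = SemidirectProduct.inl y.1.left := SemidirectProduct.ext rfl hyr
  have hyg : y.1.left ∈ GOs (qMinus m F a b) := by
    rw [← inl_mem_iff, ← hyl]; exact y.2
  refine ⟨⟨_, hyg⟩, τ, ?_⟩
  have h1 : x = y * χ τ := by rw [hy, inv_mul_cancel_right]
  rw [h1]
  congr 1
  exact Subtype.ext hyl

include hK hab hθ hχ hG in
theorem iota_surj_two [CharP F 2] : Function.Surjective ((pj (qMinus m F a b)).comp χ) := by
  have hQ := nondeg_qMinus m a b hab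
  have hF : (∃ a : F, a ≠ 0 ∧ a ≠ 1) ∨ finrank F ((Fin m ⊕ Fin m) ⊕ Fin 2 → F) ≠ 4 := hG.hF
  intro z
  obtain ⟨x, rfl⟩ := pj_surj hG z
  obtain ⟨g, τ, hx⟩ := sp_split hK hab hθ hχ x
  obtain ⟨s, t, ht⟩ := two_split g.2
  obtain ⟨hbr, v, hv, hbl⟩ := chi_bar hK hab hθ (hχ (barE F))
  rcases Int.units_eq_one_or (par hQ hF (oIso _ t)) with h | h
  · refine ⟨τ, ?_⟩
    have h1 : pj (qMinus m F a b) ⟨SemidirectProduct.inl g.1, inl_mem_iff.2 g.2⟩ = 1 := by
      rw [pj_eq_one hG.gd]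
      exact ⟨rfl, s, ⟨t, (two_omega hQ hF minus_hx t).2 h⟩, ht⟩
    rw [hx, map_mul, h1, one_mul]; rfl
  · refine ⟨barE F * τ, ?_⟩
    have h1 : pj (qMinus m F a b) (⟨SemidirectProduct.inl g.1, inl_mem_iff.2 g.2⟩ * χ (barE F)) = 1 := by
      rw [pj_eq_one hG.gd]
      refine ⟨?_, s, ⟨t * rfM _ v hv, (two_omega hQ hF minus_hx _).2 ?_⟩, ?_⟩
      · show (1 : F ≃+* F) * (χ (barE F)).1.right = 1
        rw [hbr, one_mul]
      · rw [map_mul, map_mul, h]
        unfold rfM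
        rw [MulEquiv.apply_symm_apply, par_refl]; rfl
      · show (g : GL ((Fin m ⊕ Fin m) ⊕ Fin 2) F) * gm (1 : F ≃+* F) (χ (barE F)).1.left = scal s * ((t * rfM _ v hv : Cfsg.isometryGroup F ⇑(qMinus m F a b)) : GL ((Fin m ⊕ Fin m) ⊕ Fin 2) F)
        have h3 : ∀ y : GL ((Fin m ⊕ Fin m) ⊕ Fin 2) F, gm (1 : F ≃+* F) y = y := fun y => Units.ext (by ext i j; rfl)
        rw [h3, hbl, ht, Subgroup.coe_mul, mul_assoc]
    have hbb : (barE F : K ≃+* K) * barE F = 1 := RingEquiv.ext fun z => bar_bar hK z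
    have e0 : χ (barE F) * χ (barE F) = 1 := by rw [← map_mul, hbb, map_one]
    have e3 := grp_aux (pj (qMinus m F a b)) _ _ (χ τ) h1 e0
    have e4 : pj (qMinus m F a b) x = pj (qMinus m F a b) (χ (barE F) * χ τ) := (congrArg (pj (qMinus m F a b)) hx).trans e3
    exact (congrArg (pj (qMinus m F a b)) (map_mul χ (barE F) τ)).trans e4.symm

end

end CfsgLib.Min27
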