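import Cfsg.Agent.LibMin27b

set_option autoImplicit false

/-! The outer automorphism groups of the minus-type groups, odd characteristic. -/

namespace CfsgLib.Min27

open Cfsg.Agent.H22 CfsgLib.Semi27 CfsgLib.Lift27 CfsgLib.RhoO27 CfsgLib.AutO27 CfsgLib.Spinor27 CfsgLib.Even27 CfsgLib.AutPSL27 CfsgLib.Small27 Module Matrix

section gen
variable {F : Type*} [Field F] [Fintype F] {ι : Type} [Fintype ι] [DecidableEq ι] {Q : QuadraticForm F (ι → F)} {n : ℕ}

/-- similarities as semisimilarities -/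
noncomputable def JG (Q : QuadraticForm F (ι → F)) : GOs Q →* SP Q :=
  (SemidirectProduct.inl.comp (GOs Q).subtype).codRestrict (SP Q) fun s => inl_mem_iff.2 s.2

theorem JG_val (g : GOs Q) : (JG Q g).1 = SemidirectProduct.inl g.1 := rfl

theorem JG_left (g : GOs Q) : (JG Q g).1.left = g.1 := rfl

theorem JG_right (g : GOs Q) : (JG Q g).1.right = 1 := rfl

theorem exists_JG {x : SP Q} (h : x.1.right = 1) : ∃ g : GOs Q, x = JG Q g := by
  have hyl : x.1 = SemidirectProduct.inl x.1.left := SemidirectProduct.ext rfl h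
  have hyg : x.1.left ∈ GOs Q := by
    rw [← inl_mem_iff, ← hyl]; exact x.2
  exact ⟨⟨_, hyg⟩, Subtype.ext hyl⟩

/-- conjugation -/
noncomputable def cjg (x : SP Q) (g : GOs Q) : GOs Q := ⟨cjG x.1 g.1, cjG_GOs x g.2⟩

theorem conj_JG (x : SP Q) (g : GOs Q) : x * JG Q g * x⁻¹ = JG Q (cjg x g) := by
  have h1 : x * JG Q g = JG Q (cjg x g) * x := by
    apply Subtype.ext
    apply SemidirectProduct.ext
    · show x.1.left * gm x.1.right g.1 = cjG x.1 g.1 * gm (1 : F ≃+* F) x.1.left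
      have h3 : ∀ y : GL ι F, gm (1 : F ≃+* F) y = y := fun y => Units.ext (by ext i j; rfl)
      rw [h3, cjG_apply, inv_mul_cancel_right]
    · show x.1.right * 1 = 1 * x.1.right
      rw [mul_one, one_mul]
  rw [h1, mul_inv_cancel_right]

theorem cjg_mul (x : SP Q) (g g' : GOs Q) : cjg x (g * g') = cjg x g * cjg x g' := Subtype.ext (map_mul (cjG x.1) g.1 g'.1)

theorem mu_cjg (hx : ∃ x, Q x ≠ 0) (x : SP Q) (g : GOs Q) : ((mu hx (cjg x g) : Fˣ) : F) = x.1.right (mu hx g : Fˣ) := by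
  have h : mu hx (cjg x g) = Units.map (x.1.right : F →* F) (mu hx g) := by
    apply mu_eq
    intro v
    obtain ⟨w, rfl⟩ : ∃ w, act x.1 w = v := ⟨act x.1⁻¹ v, act_inv x.1 v⟩
    obtain ⟨c, hc⟩ := mem_SP.1 x.2
    have h1 : (((cjg x g : GOs Q) : GL ι F) : Matrix ι ι F) *ᵥ act x.1 w = act x.1 (((g : GL ι F) : Matrix ι ι F) *ᵥ w) := cjG_act x.1 _ w
    rw [h1, hc, hc, mu_spec hx, map_mul]
    show _ = x.1.right (mu hx g : Fˣ) * (c * x.1.right (Q w))
    ring
  rw [h]; rfl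

theorem det_cjg (x : SP Q) (g : GOs Q) : (((cjg x g : GOs Q) : GL ι F).det : F) = x.1.right ((g : GL ι F).det : F) := by
  show ((cjG x.1 g.1 : GL ι F).det : F) = _
  rw [cjG_apply, map_mul, map_mul, map_inv, mul_inv_cancel_comm]
  exact ((x.1.right : F →+* F).map_det ((g : GL ι F) : Matrix ι ι F)).symm

theorem units_iff {a b : ℤˣ} (h : a = 1 ↔ b = 1) : a = b := by
  rcases Int.units_eq_one_or a with ha | ha
  · rw [ha, h.1 ha]
  · have hb : b ≠ 1 := fun hb => by rw [h.2 hb] at ha; exact absurd ha (by decide)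
    rw [ha, units_ne hb]

theorem isSquare_ringEquiv (σ : F ≃+* F) (c : F) : IsSquare (σ c) ↔ IsSquare c := by
  constructor
  · rintro ⟨s, hs⟩
    refine ⟨σ.symm s, ?_⟩
    rw [← map_mul, ← hs, RingEquiv.symm_apply_apply]
  · rintro ⟨s, hs⟩
    exact ⟨σ s, by rw [hs, map_mul]⟩

theorem cl_cjg (h : Ev Q n) (x : SP Q) (g : GOs Q) : h.cl (cjg x g) = h.cl g := by
  apply units_iff
  rw [h.cl_apply, h.cl_apply, chi_eq_one, chi_eq_one, mu_cjg, isSquare_ringEquiv]

theorem eps_cjg (h : Ev Q n) (x : SP Q) (g : GOs Q) : h.eps (cjg x g) = h.eps g := by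
  apply units_iff
  rw [h.eps_eq_one, h.eps_eq_one]
  constructor
  · intro h1
    have h3 := congrArg Units.val h1
    rw [Units.val_pow_eq_pow_val, det_cjg, mu_cjg, ← map_pow] at h3
    apply Units.ext
    rw [Units.val_pow_eq_pow_val]
    exact x.1.right.injective h3
  · intro h1
    apply Units.ext
    rw [Units.val_pow_eq_pow_val, det_cjg, mu_cjg, ← map_pow, h1, Units.val_pow_eq_pow_val]

theorem ch_cjg (h : Ev Q n) (x : SP Q) (g : GOs Q) : h.ch (cjg x g) = h.ch g := Prod.ext (eps_cjg h x g) (cl_cjg h x g)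

variable {e f : Fin 3 → (ι → F)} {u : ι → F}

theorem pj_JG (hG : Gd Q e f u) (g : GOs Q) : pj Q (JG Q g) = 1 ↔ g ∈ KI Q := by
  rw [pj_eq_one hG, mem_KI hG, JG_left, JG_right]
  exact ⟨fun h => h.2, fun h => ⟨rfl, h⟩⟩

theorem pj_JG_eq (hG : Gd Q e f u) (g g' : GOs Q) : pj Q (JG Q g) = pj Q (JG Q g') ↔ g⁻¹ * g' ∈ KI Q := by
  rw [← pj_JG hG, map_mul, map_mul, map_inv, map_inv, inv_mul_eq_one]

/-- two elements of the kernel of the characters in the same class -/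
theorem ker_class (h : Ev Q n) (hG : Gd Q e f u) {k k' : GOs Q} (hk : h.ch k = 1) (hk' : h.ch k' = 1) (hkk : k ∈ KI Q ↔ k' ∈ KI Q) : k⁻¹ * k' ∈ KI Q := by
  by_cases hneg : NegIn Q
  · obtain ⟨c, s, hs, hg⟩ := (h.mem_ch_ker k).1 (MonoidHom.mem_ker.2 hk)
    obtain ⟨c', s', hs', hg'⟩ := (h.mem_ch_ker k').1 (MonoidHom.mem_ker.2 hk')
    obtain ⟨S, hS⟩ : ∃ S : Cfsg.isometryGroup F ⇑Q, (S : GL ι F) = s := ⟨⟨s, hs.1⟩, rfl⟩
    obtain ⟨S', hS'⟩ : ∃ S' : Cfsg.isometryGroup F ⇑Q, (S' : GL ι F) = s' := ⟨⟨s', hs'.1⟩, rfl⟩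
    have hdS : (S : GL ι F).det = 1 := by rw [hS]; exact hs.2
    have hdS' : (S' : GL ι F).det = 1 := by rw [hS']; exact hs'.2
    rw [h.mem_KI_iff hG hneg (a := c) hdS (by rw [hg, hS]), h.mem_KI_iff hG hneg (a := c') hdS' (by rw [hg', hS'])] at hkk
    rw [h.mem_KI_iff hG hneg (a := c⁻¹ * c') (s := S⁻¹ * S')]
    · rw [map_mul, map_inv, units_iff hkk, inv_mul_cancel]
    · rw [Subgroup.coe_mul, map_mul, Subgroup.coe_inv, map_inv, hdS, hdS', inv_one, one_mul]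
    · rw [Subgroup.coe_mul, Subgroup.coe_inv, hg, hg', Subgroup.coe_mul, Subgroup.coe_inv, hS, hS', _root_.mul_inv_rev, scal_mul]
      have h8 : (scal c : GL ι F)⁻¹ = scal c⁻¹ := by
        rw [inv_eq_iff_mul_eq_one, ← scal_mul, mul_inv_cancel, scal_one]
      rw [h8, ← scal_comm, mul_assoc, mul_assoc, ← mul_assoc s⁻¹, ← scal_comm c' s⁻¹, mul_assoc]
  · have h1 : h.ch.ker ≤ KI Q := Subgroup.relIndex_eq_one.1 ((h.KI_relIndex hG).2 hneg)
    apply h1
    rw [MonoidHom.mem_ker, map_mul, map_inv, hk, hk', inv_one, one_mul]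

theorem ker_sq (h : Ev Q n) (hG : Gd Q e f u) {k : GOs Q} (hk : h.ch k = 1) : k * k ∈ KI Q := by
  have h1 := ker_class h hG (k := k⁻¹) (k' := k) (by rw [map_inv, hk, inv_one]) hk (by rw [inv_mem_iff])
  rwa [inv_inv] at h1

/-- squares centralize the image of the similarities -/
theorem sq_comm (h : Ev Q n) (hG : Gd Q e f u) (x : SP Q) (g : GOs Q) : Commute (pj Q x * pj Q x) (pj Q (JG Q g)) := by
  obtain ⟨k, hk⟩ : ∃ k, k = g⁻¹ * cjg x g := ⟨_, rfl⟩
  have hkc : h.ch k = 1 := by rw [hk, map_mul, map_inv, ch_cjg, inv_mul_cancel]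
  have hcj : cjg x g = g * k := by rw [hk, mul_inv_cancel_left]
  have e1 : pj Q x * pj Q (JG Q g) * (pj Q x)⁻¹ = pj Q (JG Q g) * pj Q (JG Q k) := by
    rw [← map_inv, ← map_mul, ← map_mul, conj_JG, hcj, map_mul, map_mul]
  have e2 : pj Q x * pj Q (JG Q k) * (pj Q x)⁻¹ = pj Q (JG Q k) := by
    rw [← map_inv, ← map_mul, ← map_mul, conj_JG]
    symm
    rw [pj_JG_eq hG]
    apply ker_class h hG hkc (by rw [ch_cjg, hkc])
    rw [← pj_JG hG, ← pj_JG hG, ← conj_JG, map_mul, map_mul, map_inv, mul_inv_eq_one, mul_eq_left]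
  have e3 : pj Q (JG Q k) * pj Q (JG Q k) = 1 := by
    rw [← map_mul, ← map_mul, pj_JG hG]
    exact ker_sq h hG hkc
  show pj Q x * pj Q x * pj Q (JG Q g) = pj Q (JG Q g) * (pj Q x * pj Q x)
  generalize pj Q x = X at *
  generalize pj Q (JG Q g) = G at *
  generalize pj Q (JG Q k) = k₁ at *
  have e4 : X * G = G * k₁ * X := by rw [← e1, inv_mul_cancel_right]
  have e5 : X * k₁ = k₁ * X := by
    conv_rhs => rw [← e2]
    rw [inv_mul_cancel_right]
  have s1 : X * X * G = G * k₁ * X * k₁ * X := by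
    have : X * X * G = X * (X * G) := mul_assoc _ _ _
    rw [this, e4, ← mul_assoc, ← mul_assoc, e4]
  have s2 : G * k₁ * X * k₁ * X = G * (k₁ * k₁) * X * X := by
    have : G * k₁ * X * k₁ * X = G * k₁ * (X * k₁) * X := by simp only [mul_assoc]
    rw [this, e5]; simp only [mul_assoc]
  rw [s1, s2, e3, mul_one, mul_assoc]

end gen

end CfsgLib.Min27
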