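import Cfsg.Agent.LibMin27c

set_option autoImplicit false

/-! The outer automorphism groups of the minus-type groups, odd characteristic: structure. -/

namespace CfsgLib.Min27

open Cfsg.Agent.H22 CfsgLib.Semi27 CfsgLib.Lift27 CfsgLib.RhoO27 CfsgLib.AutO27 CfsgLib.Spinor27 CfsgLib.Even27 CfsgLib.AutPSL27 CfsgLib.Small27 Module Matrix

section
variable {F K : Type*} [Field F] [Fintype F] [Field K] [Fintype K] [Algebra F K]

local notation "α" => algebraMap F K

variable {m : ℕ} {a b : F} {θ : K}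
variable (hK : Fintype.card K = Fintype.card F ^ 2) (hab : ∀ z₁ z₂ : F, z₁ ^ 2 + a * z₁ * z₂ + b * z₂ ^ 2 = 0 → z₁ = 0 ∧ z₂ = 0)
  (hθ : θ ^ 2 + algebraMap F K a * θ + algebraMap F K b = 0)
variable {χ : (K ≃+* K) →* SP (qMinus m F a b)} (hχ : ∀ τ, Rel θ τ (χ τ))
variable {e f : Fin 3 → ((Fin m ⊕ Fin m) ⊕ Fin 2 → F)} {u : (Fin m ⊕ Fin m) ⊕ Fin 2 → F} (hG : Good (qMinus m F a b) e f u)
  (h : Ev (qMinus m F a b) (m + 1))

theorem sp_split' (x : SP (qMinus m F a b)) (τ : K ≃+* K) (hτ : (χ τ).1.right = x.1.right) : ∃ g : GOs (qMinus m F a b), x = JG _ g * χ τ := by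
  obtain ⟨g, hg⟩ := exists_JG (x := x * (χ τ)⁻¹) (by
    show x.1.right * (χ τ).1.right⁻¹ = 1
    rw [hτ, mul_inv_cancel])
  exact ⟨g, by rw [← hg, inv_mul_cancel_right]⟩

include hK hab hθ hχ in
/-- the involution -/
theorem bar_JG : ∃ r : GOs (qMinus m F a b), χ (barE F) = JG _ r ∧ h.ch r = (-1, 1) := by
  obtain ⟨hr, v, hv, hl⟩ := chi_bar hK hab hθ (hχ (barE F))
  refine ⟨rfG v hv, ?_, Prod.ext (h.eps_rfG v hv) (h.cl_rfG v hv)⟩
  apply Subtype.ext
  apply SemidirectProduct.ext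
  · exact hl
  · exact hr

include hK hab hθ hχ hG in
theorem iota_eq_one {g : GOs (qMinus m F a b)} {τ : K ≃+* K} (hgt : pj _ (JG _ g) * pj _ (χ τ) = 1) :
    τ = 1 ∧ g ∈ KI _ ∨ τ = barE F := by
  rw [← map_mul, pj_eq_one hG.gd] at hgt
  have hr : (χ τ).1.right = 1 := by
    have h1 : (1 : F ≃+* F) * (χ τ).1.right = 1 := hgt.1
    rwa [one_mul] at h1
  rcases fix_cases hK hab hθ τ (fun c => by rw [← (hχ τ).1, hr]; rfl) with h1 | h1
  · left
    refine ⟨h1, ?_⟩
    rw [h1, map_one, mul_one] at hgt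
    rw [← pj_JG hG.gd, pj_eq_one hG.gd]
    exact hgt
  · exact Or.inr h1

set_option maxHeartbeats 2000000 in
include hK hab hθ hχ hG h in
/-- `-1 ∉ Ω` -/
theorem out_neg {p k : ℕ} [Fact p.Prime] (hp : Nat.card K = p ^ (2 * k)) (hneg : ¬ NegIn (qMinus m F a b)) :
    Nonempty (Cfsg.Out (Cfsg.POmega F ⇑(qMinus m F a b)) ≃* Multiplicative (ZMod 2 × ZMod (2 * k))) := by
  have hKI : ∀ g, g ∈ KI (qMinus m F a b) ↔ h.ch g = 1 := by
    intro g
    constructor
    · intro hg; exact KI_le h hG.gd hg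
    · intro hg
      exact (Subgroup.relIndex_eq_one.1 ((h.KI_relIndex hG.gd).2 hneg)) (MonoidHom.mem_ker.2 hg)
  obtain ⟨D, hD⟩ := h.ch_surj (1, -1)
  obtain ⟨r, hr, hrc⟩ := bar_JG hK hab hθ hχ h
  obtain ⟨d, hd⟩ : ∃ d, d = pj (qMinus m F a b) (JG _ D) := ⟨_, rfl⟩
  have hd2 : d * d = 1 := by
    rw [hd, ← map_mul, ← map_mul, pj_JG hG.gd, hKI, map_mul, hD]
    rfl
  have hd1 : d ≠ 1 := by
    rw [hd, Ne, pj_JG hG.gd, hKI, hD]
    intro h1
    exact absurd (congrArg Prod.snd h1) (by decide)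
  have hod : orderOf d = 2 := orderOf_eq_prime (by rw [pow_two, hd2]) hd1
  have hcomm : ∀ τ, Commute d (pj (qMinus m F a b) (χ τ)) := by
    intro τ
    have h1 : pj (qMinus m F a b) (χ τ) * d * (pj (qMinus m F a b) (χ τ))⁻¹ = d := by
      rw [hd, ← map_inv, ← map_mul, ← map_mul, conj_JG]
      symm
      rw [pj_JG_eq hG.gd, hKI, map_mul, map_inv, ch_cjg, inv_mul_cancel]
    exact (mul_inv_eq_iff_eq_mul.1 h1).symm
  have hzp : ∀ z ∈ Subgroup.zpowers d, z = 1 ∨ z = d := by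
    intro z hz
    obtain ⟨j, rfl⟩ := Subgroup.mem_zpowers_iff.1 hz
    rcases Int.even_or_odd' j with ⟨i, hi | hi⟩
    · left
      rw [hi, _root_.zpow_mul, zpow_ofNat, pow_two, hd2, _root_.one_zpow]
    · right
      rw [hi, _root_.zpow_add, _root_.zpow_mul, zpow_ofNat, pow_two, hd2, _root_.one_zpow, one_mul, zpow_one]
  let Θ : Subgroup.zpowers d × (K ≃+* K) →* Cfsg.Out (Cfsg.POmega F ⇑(qMinus m F a b)) :=
    MonoidHom.noncommCoprod (Subgroup.zpowers d).subtype ((pj (qMinus m F a b)).comp χ) (by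
      rintro ⟨z, hz⟩ τ
      rcases hzp z hz with h1 | h1
      · subst h1; exact Commute.one_left _
      · subst h1; exact hcomm τ)
  have hΘ : ∀ z τ, Θ (z, τ) = z.1 * pj (qMinus m F a b) (χ τ) := fun z τ => rfl
  have hbij : Function.Bijective Θ := by
    constructor
    · rw [injective_iff_map_eq_one]
      rintro ⟨⟨z, hz⟩, τ⟩ h1
      rw [hΘ] at h1
      have h1' : z * pj (qMinus m F a b) (χ τ) = 1 := h1
      rcases hzp z hz with h3 | h3
      · rw [h3, one_mul] at h1'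
        have h4 : τ = 1 := iota_inj hK hab hθ hχ hG (h1'.trans (map_one _).symm)
        exact Prod.ext (Subtype.ext h3) h4
      · exfalso
        rw [h3, hd] at h1'
        rcases iota_eq_one hK hab hθ hχ hG h1' with ⟨h4, h5⟩ | h4
        · rw [hKI, hD] at h5
          exact absurd (congrArg Prod.snd h5) (by decide)
        · rw [h4, hr, ← map_mul, ← map_mul, pj_JG hG.gd, hKI, map_mul, hD, hrc] at h1'
          exact absurd (congrArg Prod.snd h1') (by decide)
    · intro z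
      obtain ⟨x, rfl⟩ := pj_surj hG z
      obtain ⟨τ, hτ⟩ := res_surj hK hab hθ hχ x.1.right
      obtain ⟨g, hg⟩ := sp_split' x τ hτ
      have hmem : d ∈ Subgroup.zpowers d := Subgroup.mem_zpowers d
      have key : ∀ (g' : GOs (qMinus m F a b)), h.ch g = h.ch g' → pj (qMinus m F a b) (JG _ g) = pj (qMinus m F a b) (JG _ g') := by
        intro g' hg'
        rw [pj_JG_eq hG.gd, hKI, map_mul, map_inv, hg', inv_mul_cancel]
      have hx : pj (qMinus m F a b) x = pj (qMinus m F a b) (JG _ g) * pj (qMinus m F a b) (χ τ) := (congrArg _ hg).trans (map_mul _ _ _)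
      rcases Int.units_eq_one_or (h.eps g) with h1 | h1 <;> rcases Int.units_eq_one_or (h.cl g) with h3 | h3
      · refine ⟨(1, τ), ?_⟩
        rw [hΘ, hx, key 1 (by rw [map_one]; exact Prod.ext h1 h3), map_one, map_one]; rfl
      · refine ⟨(⟨d, hmem⟩, τ), ?_⟩
        rw [hΘ, hx, key D (by rw [hD]; exact Prod.ext h1 h3), ← hd]
      · refine ⟨(1, barE F * τ), ?_⟩
        rw [hΘ, hx, key r (by rw [hrc]; exact Prod.ext h1 h3), ← hr]
        show (1 : Cfsg.Out (Cfsg.POmega F ⇑(qMinus m F a b))) * pj (qMinus m F a b) (χ (barE F * τ)) = _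
        rw [one_mul, ← map_mul]
        exact congrArg _ (map_mul χ (barE F) τ)
      · refine ⟨(⟨d, hmem⟩, barE F * τ), ?_⟩
        have e1 : pj (qMinus m F a b) (JG _ g) = d * pj (qMinus m F a b) (χ (barE F)) := by
          rw [hd, hr, ← map_mul, ← map_mul]
          apply key
          rw [map_mul, hD, hrc]; exact Prod.ext h1 h3
        rw [hΘ, hx, e1]
        have e2 : pj (qMinus m F a b) (χ (barE F * τ)) = pj (qMinus m F a b) (χ (barE F)) * pj (qMinus m F a b) (χ τ) :=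
          (congrArg _ (map_mul χ (barE F) τ)).trans (map_mul _ _ _)
        rw [e2, ← mul_assoc]
  haveI : Fact (Nat.Prime 2) := ⟨Nat.prime_two⟩
  have e2 : Subgroup.zpowers d ≃* Multiplicative (ZMod 2) := mulEquivOfPrimeCardEq (p := 2) (by rw [Nat.card_zpowers, hod]) (by simp)
  obtain ⟨e1⟩ := exists_ringAut_equiv (F := K) p (2 * k) hp
  exact ⟨(MulEquiv.ofBijective Θ hbij).symm.trans ((MulEquiv.prodCongr e2 e1).trans (MulEquiv.prodMultiplicative (ZMod 2) (ZMod (2 * k))).symm)⟩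

set_option maxHeartbeats 2000000 in
include hK hab hθ hχ hG h in
/-- `-1 ∈ Ω` -/
theorem out_pos {p k : ℕ} [Fact p.Prime] (hk : Odd k) (hp : Nat.card K = p ^ (2 * k)) (hp' : Nat.card F = p ^ k) (hneg : NegIn (qMinus m F a b)) :
    Nonempty (Cfsg.Out (Cfsg.POmega F ⇑(qMinus m F a b)) ≃* DihedralGroup 4 × Multiplicative (ZMod k)) := by
  obtain ⟨hcyc, hcK⟩ := ringAut_cyclic (F := K) p (2 * k) hp
  have hcF := ringAut_cyclic (F := F) p k hp'
  obtain ⟨τ₀, hτ₀⟩ := hcyc.exists_generator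
  have hk0 : 0 < k := hk.pos
  haveI : Finite (K ≃+* K) := Nat.finite_of_card_ne_zero (by rw [hcK]; omega)
  haveI : Finite (F ≃+* F) := Nat.finite_of_card_ne_zero (by rw [hcF.2]; omega)
  have ho : orderOf τ₀ = 2 * k := by rw [← hcK]; exact orderOf_eq_card_of_forall_mem_zpowers hτ₀
  obtain ⟨τ₁, hτ₁⟩ : ∃ τ₁, τ₁ = τ₀ ^ 2 := ⟨_, rfl⟩
  have ho1 : orderOf τ₁ = k := by
    rw [hτ₁, orderOf_pow, ho, Nat.gcd_eq_right (Dvd.intro _ rfl), Nat.mul_div_cancel_left _ (by norm_num)]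
  obtain ⟨e1⟩ := h.d8 hG.gd hneg
  -- the subgroup of similarities
  obtain ⟨N, hN⟩ : ∃ N, N = ((pj (qMinus m F a b)).comp (JG _)).range := ⟨_, rfl⟩
  have hker : ((pj (qMinus m F a b)).comp (JG _)).ker = KI (qMinus m F a b) := by
    ext g
    rw [MonoidHom.mem_ker]
    exact pj_JG hG.gd g
  have eN : N ≃* DihedralGroup 4 := by
    rw [hN]
    exact ((QuotientGroup.quotientKerEquivRange _).symm.trans (QuotientGroup.quotientMulEquivOfEq hker)).trans e1
  have hcomm : ∀ (g : GOs (qMinus m F a b)) (τ : K ≃+* K), τ ∈ Subgroup.zpowers τ₁ → Commute (pj (qMinus m F a b) (JG _ g)) (pj (qMinus m F a b) (χ τ)) := by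
    intro g τ hτ
    obtain ⟨j, rfl⟩ := Subgroup.mem_zpowers_iff.1 hτ
    have h1 := sq_comm h hG.gd (χ τ₀) g
    have h3 : pj (qMinus m F a b) (χ τ₁) = pj (qMinus m F a b) (χ τ₀) * pj (qMinus m F a b) (χ τ₀) := by
      have : χ τ₁ = χ τ₀ * χ τ₀ := by rw [hτ₁, pow_two]; exact map_mul χ τ₀ τ₀
      rw [this, map_mul]
    rw [← h3] at h1
    have h4 : pj (qMinus m F a b) (χ (τ₁ ^ j)) = pj (qMinus m F a b) (χ τ₁) ^ j := by
      have : χ (τ₁ ^ j) = χ τ₁ ^ j := map_zpow χ τ₁ j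
      rw [this, map_zpow]
    rw [h4]
    exact (h1.zpow_left j).symm
  let Θ : N × Subgroup.zpowers τ₁ →* Cfsg.Out (Cfsg.POmega F ⇑(qMinus m F a b)) :=
    MonoidHom.noncommCoprod N.subtype (((pj (qMinus m F a b)).comp χ).comp (Subgroup.zpowers τ₁).subtype) (by
      rintro ⟨z, hz⟩ τ
      rw [hN] at hz
      obtain ⟨g, rfl⟩ := hz
      exact hcomm g τ.1 τ.2)
  have hΘ : ∀ z τ, Θ (z, τ) = z.1 * pj (qMinus m F a b) (χ τ.1) := fun z τ => rfl
  have hbar : (barE F : K ≃+* K) ∉ Subgroup.zpowers τ₁ := by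
    intro hmem
    have hb2 : (barE F : K ≃+* K) ^ 2 = 1 := by
      rw [pow_two]
      exact RingEquiv.ext fun z => bar_bar hK z
    have hbk : (barE F : K ≃+* K) ^ k = 1 := by
      obtain ⟨j, hj⟩ := Subgroup.mem_zpowers_iff.1 hmem
      rw [← hj, ← zpow_natCast, ← _root_.zpow_mul, mul_comm, _root_.zpow_mul, zpow_natCast, ← ho1, pow_orderOf_eq_one, _root_.one_zpow]
    obtain ⟨j, hj⟩ := hk
    rw [hj, pow_add, pow_mul, hb2, one_pow, one_mul, pow_one] at hbk
    obtain ⟨h2, -, -⟩ := theta_bar hab hθ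
    obtain ⟨x, hx⟩ := (bar_eq_self_iff (F := F) θ).1 (congrArg (fun τ : K ≃+* K => τ θ) hbk)
    exact h2 x hx
  have hbij : Function.Bijective Θ := by
    constructor
    · rw [injective_iff_map_eq_one]
      rintro ⟨⟨z, hz⟩, τ⟩ h1
      rw [hΘ] at h1
      have hz' := hz
      rw [hN] at hz'
      obtain ⟨g, hg⟩ := hz'
      have hg' : pj (qMinus m F a b) (JG _ g) = z := hg
      have h1' : pj (qMinus m F a b) (JG _ g) * pj (qMinus m F a b) (χ τ.1) = 1 := by rw [hg']; exact h1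
      rcases iota_eq_one hK hab hθ hχ hG h1' with ⟨h4, h5⟩ | h4
      · refine Prod.ext (Subtype.ext ?_) (Subtype.ext h4)
        show z = 1
        rw [← hg', pj_JG hG.gd]
        exact h5
      · exact absurd (h4 ▸ τ.2) hbar
    · -- restriction to the subgroup is onto
      have hres : ∀ σ : F ≃+* F, ∃ τ ∈ Subgroup.zpowers τ₁, (χ τ).1.right = σ := by
        let res : (K ≃+* K) →* (F ≃+* F) := (SemidirectProduct.rightHom : GamL ((Fin m ⊕ Fin m) ⊕ Fin 2) F →* (F ≃+* F)).comp ((SP (qMinus m F a b)).subtype.comp χ)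
        have hres : ∀ τ, res τ = (χ τ).1.right := fun τ => rfl
        have hinj : Function.Injective (res.comp (Subgroup.zpowers τ₁).subtype) := by
          rw [injective_iff_map_eq_one]
          intro τ hτ
          have hτ' : (χ τ.1).1.right = 1 := hτ
          rcases fix_cases hK hab hθ τ.1 (fun c => by rw [← (hχ τ.1).1, hτ']; rfl) with h1 | h1
          · exact Subtype.ext h1
          · exact absurd (h1 ▸ τ.2) hbar
        have hb := (Nat.bijective_iff_injective_and_card (res.comp (Subgroup.zpowers τ₁).subtype)).2 ⟨hinj, by rw [Nat.card_zpowers, ho1, hcF.2]⟩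
        intro σ
        obtain ⟨τ, hτ⟩ := hb.2 σ
        exact ⟨τ.1, τ.2, hτ⟩
      intro z
      obtain ⟨x, rfl⟩ := pj_surj hG z
      obtain ⟨τ, hτm, hτ⟩ := hres x.1.right
      obtain ⟨g, hg⟩ := sp_split' x τ hτ
      refine ⟨(⟨pj (qMinus m F a b) (JG _ g), by rw [hN]; exact ⟨g, rfl⟩⟩, ⟨τ, hτm⟩), ?_⟩
      rw [hΘ]
      exact ((congrArg _ hg).trans (map_mul _ _ _)).symm
  have e2 : Subgroup.zpowers τ₁ ≃* Multiplicative (ZMod k) := mulEquivOfCyclicCardEq (by rw [Nat.card_zpowers, ho1]; exact (Nat.card_zmod k).symm)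
  exact ⟨(MulEquiv.ofBijective Θ hbij).symm.trans (MulEquiv.prodCongr eN e2)⟩

end

end CfsgLib.Min27
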