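import Mathlib

/-!
Babai's lower bound for the minimal degree of a primitive group: orbital colours and
the points distinguishing a pair.
-/

set_option autoImplicit false

namespace CfsgLib.MinDeg28

open MulAction Finset
open scoped Pointwise

variable {G Ω : Type*} [Group G] [MulAction G Ω] [Fintype Ω]

/-- the pairs `(a,b)` and `(c,d)` lie in one orbital -/
def rel (G : Type*) {Ω : Type*} [Group G] [MulAction G Ω] (a b c d : Ω) : Prop := ∃ g : G, g • a = c ∧ g • b = d

theorem rel_refl (a b : Ω) : rel G a b a b := ⟨1, one_smul _ _, one_smul _ _⟩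

theorem rel_symm {a b c d : Ω} (h : rel G a b c d) : rel G c d a b := by
  obtain ⟨g, rfl, rfl⟩ := h
  exact ⟨g⁻¹, inv_smul_smul _ _, inv_smul_smul _ _⟩

theorem rel_trans {a b c d e f : Ω} (h : rel G a b c d) (h' : rel G c d e f) : rel G a b e f := by
  obtain ⟨g, rfl, rfl⟩ := h
  obtain ⟨k, rfl, rfl⟩ := h'
  exact ⟨k * g, mul_smul _ _ _, mul_smul _ _ _⟩

theorem rel_smul (g : G) (a b : Ω) : rel G a b (g • a) (g • b) := ⟨g, rfl, rfl⟩

theorem rel_smul_right {a b c d : Ω} (g : G) (h : rel G a b c d) : rel G a b (g • c) (g • d) :=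
  rel_trans h (rel_smul g c d)

open Classical in
/-- number of points distinguishing `a` and `b` -/
noncomputable def D (G : Type*) {Ω : Type*} [Group G] [MulAction G Ω] [Fintype Ω] (a b : Ω) : ℕ :=
  (univ.filter (fun x : Ω => ¬ rel G a x b x)).card

open Classical in
noncomputable def outN (G : Type*) {Ω : Type*} [Group G] [MulAction G Ω] [Fintype Ω] (a b x : Ω) : Finset Ω :=
  univ.filter (fun y : Ω => rel G a b x y)

open Classical in
noncomputable def inN (G : Type*) {Ω : Type*} [Group G] [MulAction G Ω] [Fintype Ω] (a b y : Ω) : Finset Ω :=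
  univ.filter (fun x : Ω => rel G a b x y)

theorem mem_outN {a b x y : Ω} : y ∈ outN G a b x ↔ rel G a b x y := by
  classical
  simp [outN]

theorem mem_inN {a b x y : Ω} : x ∈ inN G a b y ↔ rel G a b x y := by
  classical
  simp [inN]

theorem D_smul (g : G) (a b : Ω) : D G (g • a) (g • b) = D G a b := by
  classical
  unfold D
  symm
  refine Finset.card_bij (fun x _ => g • x) ?_ ?_ ?_
  · intro x hx
    simp only [mem_filter, mem_univ, true_and] at hx ⊢
    intro h
    apply hx
    have h1 := rel_trans (rel_smul g a x) h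
    exact rel_trans h1 (rel_symm (rel_smul g b x))
  · intro x _ y _ h
    exact MulAction.injective g h
  · intro y hy
    refine ⟨g⁻¹ • y, ?_, smul_inv_smul _ _⟩
    simp only [mem_filter, mem_univ, true_and] at hy ⊢
    intro h
    apply hy
    have h1 := rel_trans (rel_symm (rel_smul g a (g⁻¹ • y))) (rel_trans h (rel_smul g b (g⁻¹ • y)))
    rwa [smul_inv_smul] at h1

theorem D_rel {a b c d : Ω} (h : rel G a b c d) : D G c d = D G a b := by
  obtain ⟨g, rfl, rfl⟩ := h
  exact D_smul g a b

theorem D_comm (a b : Ω) : D G a b = D G b a := by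
  classical
  unfold D
  congr 1
  ext x
  simp only [mem_filter, mem_univ, true_and]
  exact not_congr ⟨rel_symm, rel_symm⟩

theorem D_self (a : Ω) : D G a a = 0 := by
  classical
  unfold D
  rw [card_eq_zero, filter_eq_empty_iff]
  intro x _ h
  exact h (rel_refl _ _)

theorem D_tri (a b c : Ω) : D G a c ≤ D G a b + D G b c := by
  classical
  unfold D
  refine le_trans (card_le_card ?_) (card_union_le _ _)
  intro x hx
  simp only [mem_filter, mem_univ, true_and, mem_union] at hx ⊢
  by_contra hcon
  push Not at hcon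
  exact hx (rel_trans hcon.1 hcon.2)

theorem D_le_moved (g : G) (a : Ω) [DecidableEq Ω] : D G a (g • a) ≤ (univ.filter (fun x : Ω => g • x ≠ x)).card := by
  classical
  unfold D
  refine card_le_card ?_
  intro x hx
  simp only [mem_filter, mem_univ, true_and] at hx ⊢
  intro h
  exact hx ⟨g, rfl, h⟩

theorem card_outN [IsPretransitive G Ω] (a b x y : Ω) : (outN G a b x).card = (outN G a b y).card := by
  classical
  obtain ⟨g, rfl⟩ := exists_smul_eq G x y
  refine Finset.card_bij (fun z _ => g • z) ?_ ?_ ?_
  · intro z hz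
    rw [mem_outN] at hz ⊢
    exact rel_smul_right g hz
  · intro z _ w _ h
    exact MulAction.injective g h
  · intro z hz
    refine ⟨g⁻¹ • z, ?_, smul_inv_smul _ _⟩
    rw [mem_outN] at hz ⊢
    have := rel_smul_right g⁻¹ hz
    rwa [inv_smul_smul] at this

theorem card_inN' [IsPretransitive G Ω] (a b x y : Ω) : (inN G a b x).card = (inN G a b y).card := by
  classical
  obtain ⟨g, rfl⟩ := exists_smul_eq G x y
  refine Finset.card_bij (fun z _ => g • z) ?_ ?_ ?_
  · intro z hz
    rw [mem_inN] at hz ⊢
    exact rel_smul_right g hz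
  · intro z _ w _ h
    exact MulAction.injective g h
  · intro z hz
    refine ⟨g⁻¹ • z, ?_, smul_inv_smul _ _⟩
    rw [mem_inN] at hz ⊢
    have := rel_smul_right g⁻¹ hz
    rwa [inv_smul_smul] at this

theorem card_inN [IsPretransitive G Ω] (a b x y : Ω) : (inN G a b x).card = (outN G a b y).card := by
  classical
  have h1 : ∑ z : Ω, (outN G a b z).card = ∑ z : Ω, (inN G a b z).card := by
    unfold outN inN
    simp only [card_filter]
    exact sum_comm
  have h2 : ∑ z : Ω, (outN G a b z).card = Fintype.card Ω * (outN G a b y).card := by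
    rw [sum_congr rfl (fun z _ => card_outN a b z y), sum_const, card_univ, smul_eq_mul]
  have h3 : ∑ z : Ω, (inN G a b z).card = Fintype.card Ω * (inN G a b x).card := by
    rw [sum_congr rfl (fun z _ => card_inN' a b z x), sum_const, card_univ, smul_eq_mul]
  rw [h2, h3] at h1
  haveI : Nonempty Ω := ⟨a⟩
  exact (Nat.eq_of_mul_eq_mul_left Fintype.card_pos h1).symm

/-- connectivity of orbital graphs -/
theorem conn (hprim : IsPreprimitive G Ω) {a b : Ω} (hab : a ≠ b) (x y : Ω) :
    Relation.ReflTransGen (fun u v => rel G a b u v) x y := by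
  classical
  haveI := hprim.toIsPretransitive
  let C : Ω → Set Ω := fun u => {v | Relation.ReflTransGen (fun u v => rel G a b u v) u v}
  have hsm : ∀ (g : G) (u v : Ω), v ∈ C u → g • v ∈ C (g • u) := by
    intro g u v h
    change Relation.ReflTransGen _ _ _ at h ⊢
    induction h with
    | refl => exact Relation.ReflTransGen.refl
    | tail _ h2 ih => exact ih.tail (rel_smul_right g h2)
  have hsmul : ∀ (g : G) (u : Ω), g • C u = C (g • u) := by
    intro g u
    ext v
    rw [Set.mem_smul_set_iff_inv_smul_mem]
    constructor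
    · intro h
      have := hsm g _ _ h
      rwa [smul_inv_smul] at this
    · intro h
      have := hsm g⁻¹ _ _ h
      rwa [inv_smul_smul] at this
  have hcard : ∀ u v : Ω, (C u).ncard = (C v).ncard := by
    intro u v
    obtain ⟨g, rfl⟩ := exists_smul_eq G u v
    rw [← hsmul, Set.ncard_smul_set]
  have hsub : ∀ u v : Ω, v ∈ C u → C v = C u := by
    intro u v h
    refine Set.eq_of_subset_of_ncard_le (fun w hw => Relation.ReflTransGen.trans h hw) (hcard u v).le (Set.toFinite _)
  have hblock : IsBlock G (C a) := by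
    intro g₁ g₂ hne
    rw [Set.disjoint_left]
    intro z hz1 hz2
    rw [hsmul] at hz1 hz2
    apply hne
    rw [hsmul, hsmul, ← hsub _ _ hz1, hsub _ _ hz2]
  have haC : a ∈ C a := Relation.ReflTransGen.refl
  have hbC : b ∈ C a := Relation.ReflTransGen.single (rel_refl a b)
  rcases hprim.isTrivialBlock_of_isBlock hblock with h | h
  · exact absurd (h haC hbC) hab
  · have hx : x ∈ C a := by rw [h]; trivial
    have hy : y ∈ C x := by rw [hsub _ _ hx, h]; trivial
    exact hy

theorem exists_dist (hprim : IsPreprimitive G Ω) {a b c : Ω} (hab : a ≠ b) (hca : c ≠ a) :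
    ∃ b', rel G a b a b' ∧ ¬ rel G a c b' c := by
  by_contra hcon
  push Not at hcon
  have key : ∀ x, Relation.ReflTransGen (fun u v => rel G a b u v) a x → rel G a c x c := by
    intro x hx
    induction hx with
    | refl => exact rel_refl _ _
    | @tail u v _ h2 ih =>
      obtain ⟨g, hg1, hg2⟩ := ih
      have h3 : rel G a b a (g⁻¹ • v) := by
        have := rel_smul_right g⁻¹ h2
        rwa [← hg1, inv_smul_smul] at this
      have h4 := rel_smul_right g (hcon _ h3)
      rwa [smul_inv_smul, hg2] at h4
  obtain ⟨g, hg1, hg2⟩ := key c (conn hprim hab a c)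
  exact hca (MulAction.injective g (hg2.trans hg1.symm))

theorem valency_mul (hprim : IsPreprimitive G Ω) {a b : Ω} (hab : a ≠ b) :
    Fintype.card Ω ≤ (outN G a b a).card * D G a b + 1 := by
  classical
  have h1 : ∑ b' ∈ outN G a b a, D G a b' = (outN G a b a).card * D G a b := by
    rw [sum_congr rfl (fun b' hb' => D_rel (mem_outN.1 hb')), sum_const, smul_eq_mul]
  have h2 : ∑ b' ∈ outN G a b a, D G a b' =
      ∑ c : Ω, ((outN G a b a).filter (fun b' => ¬ rel G a c b' c)).card := by
    unfold D
    simp only [card_filter]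
    exact sum_comm
  have h3 : (univ.erase a).card ≤ ∑ c : Ω, ((outN G a b a).filter (fun b' => ¬ rel G a c b' c)).card := by
    rw [card_eq_sum_ones]
    refine le_trans (sum_le_sum (fun c hc => ?_)) (sum_le_sum_of_subset (erase_subset a univ))
    obtain ⟨b', hb1, hb2⟩ := exists_dist hprim hab (ne_of_mem_erase hc)
    exact card_pos.2 ⟨b', mem_filter.2 ⟨mem_outN.2 hb1, hb2⟩⟩
  rw [card_erase_of_mem (mem_univ a), card_univ] at h3
  omega

theorem half [IsPretransitive G Ω] [DecidableEq Ω] (a b x y : Ω) :
    2 * (outN G a b x \ outN G a b y).card ≤ D G x y := by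
  classical
  have h1 : (outN G a b x \ outN G a b y).card = (outN G a b y \ outN G a b x).card :=
    card_sdiff_comm (card_outN a b x y)
  have hd : Disjoint (outN G a b x \ outN G a b y) (outN G a b y \ outN G a b x) := by
    rw [Finset.disjoint_left]
    intro z hz hz'
    rw [mem_sdiff] at hz hz'
    exact hz.2 hz'.1
  have h2 : (outN G a b x \ outN G a b y) ∪ (outN G a b y \ outN G a b x) ⊆
      univ.filter (fun z : Ω => ¬ rel G x z y z) := by
    intro z hz
    rw [mem_union, mem_sdiff, mem_sdiff, mem_outN, mem_outN] at hz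
    rw [mem_filter]
    refine ⟨mem_univ _, fun h => ?_⟩
    rcases hz with hz | hz
    · exact hz.2 (rel_trans hz.1 h)
    · exact hz.2 (rel_trans hz.1 (rel_symm h))
  have h3 := card_le_card h2
  rw [card_union_of_disjoint hd, ← h1] at h3
  unfold D
  have h4 : (univ.filter (fun z : Ω => ¬ rel G x z y z)).card = (univ.filter (fun z : Ω => ¬ rel G x z y z)).card := rfl
  convert (by omega : 2 * (outN G a b x \ outN G a b y).card ≤ (univ.filter (fun z : Ω => ¬ rel G x z y z)).card)

/-- if `3 D < 2 n_i` then any two points are at `D`-distance at most `2 D` -/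
theorem close (hprim : IsPreprimitive G Ω) {a b : Ω} (hab : a ≠ b)
    (h : 3 * D G a b < 2 * (outN G a b a).card) (x y : Ω) : D G x y ≤ 2 * D G a b := by
  classical
  haveI := hprim.toIsPretransitive
  have key : ∃ z, z ∈ outN G a b x ∧ z ∈ outN G a b y := by
    have hc := conn hprim hab x y
    induction hc with
    | refl =>
      have h1 : 0 < (outN G a b x).card := by
        rw [card_outN a b x a]; omega
      obtain ⟨z, hz⟩ := card_pos.1 h1
      exact ⟨z, hz, hz⟩
    | @tail u v _ h2 ih =>
      obtain ⟨z, hz1, hz2⟩ := ih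
      have h3 : D G x z = D G a b := D_rel (mem_outN.1 hz1)
      have h4 : D G u z = D G a b := D_rel (mem_outN.1 hz2)
      have h5 : D G u v = D G a b := D_rel h2
      have h6 : D G x v ≤ 3 * D G a b := by
        have := D_tri (G := G) x z v
        have := D_tri (G := G) z u v
        have := D_comm (G := G) z u
        omega
      have h7 := half (G := G) a b x v
      have h8 := card_outN (G := G) a b x a
      by_contra hcon
      push Not at hcon
      have h9 : outN G a b x \ outN G a b v = outN G a b x := by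
        rw [Finset.sdiff_eq_self_iff_disjoint, Finset.disjoint_left]
        intro w hw hw'
        exact hcon w hw hw'
      rw [h9] at h7
      omega
  obtain ⟨z, hz1, hz2⟩ := key
  have h3 : D G x z = D G a b := D_rel (mem_outN.1 hz1)
  have h4 : D G y z = D G a b := D_rel (mem_outN.1 hz2)
  have := D_tri (G := G) x z y
  have := D_comm (G := G) z y
  omega

theorem sum_sdiff [IsPretransitive G Ω] [DecidableEq Ω] (a b x : Ω) :
    ∑ y : Ω, (outN G a b x \ outN G a b y).card =
      (outN G a b a).card * (Fintype.card Ω - (outN G a b a).card) := by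
  classical
  have h1 : ∀ y : Ω, (outN G a b x \ outN G a b y).card =
      ∑ z ∈ outN G a b x, if rel G a b y z then 0 else 1 := by
    intro y
    rw [card_eq_sum_ones, ← sum_filter_add_sum_filter_not (outN G a b x) (fun z => rel G a b y z)]
    have e1 : ∑ z ∈ (outN G a b x).filter (fun z => rel G a b y z), (if rel G a b y z then 0 else 1) = 0 := by
      refine sum_eq_zero fun z hz => ?_
      rw [if_pos (mem_filter.1 hz).2]
    have e2 : ∑ z ∈ (outN G a b x).filter (fun z => ¬ rel G a b y z), (if rel G a b y z then 0 else 1) =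
        ∑ z ∈ (outN G a b x).filter (fun z => ¬ rel G a b y z), 1 := by
      refine sum_congr rfl fun z hz => ?_
      rw [if_neg (mem_filter.1 hz).2]
    rw [e1, e2, zero_add]
    refine sum_congr ?_ (fun _ _ => rfl)
    ext z
    rw [mem_sdiff, mem_filter, mem_outN, mem_outN]
  rw [sum_congr rfl (fun y _ => h1 y), sum_comm]
  have h2 : ∀ z ∈ outN G a b x, ∑ y : Ω, (if rel G a b y z then 0 else 1) =
      Fintype.card Ω - (outN G a b a).card := by
    intro z _
    have h3 : ∑ y : Ω, (if rel G a b y z then 0 else 1) = (univ.filter (fun y : Ω => ¬ rel G a b y z)).card := by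
      rw [card_filter]
      refine sum_congr rfl fun y _ => ?_
      split_ifs <;> rfl
    rw [h3, filter_not, card_univ_sdiff]
    congr 1
    rw [← card_inN a b z a]
    unfold inN
    congr
  rw [sum_congr rfl h2, sum_const, smul_eq_mul, card_outN a b x a]

theorem sum_D [IsPretransitive G Ω] (x : Ω) :
    ∑ y : Ω, D G x y = ∑ z : Ω, (Fintype.card Ω - (outN G x z x).card) := by
  classical
  unfold D
  simp only [card_filter]
  rw [sum_comm]
  refine sum_congr rfl fun z _ => ?_
  rw [← card_filter, filter_not, card_univ_sdiff, ← card_inN x z z x]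
  unfold inN
  congr

/-- the uniprimitive case -/
theorem uni (hprim : IsPreprimitive G Ω) {a b c : Ω} (hab : a ≠ b) (hac : a ≠ c) (hn : ¬ rel G a b a c) :
    Fintype.card Ω ≤ (2 * D G a b + 1) ^ 2 := by
  classical
  haveI := hprim.toIsPretransitive
  set n := Fintype.card Ω with hn'
  set v := (outN G a b a).card with hv
  set d := D G a b with hd
  have hval : n ≤ v * d + 1 := valency_mul hprim hab
  have hvn : v ≤ n := card_le_univ _
  by_cases h3 : 3 * d < 2 * v
  · have hcl := close hprim hab h3
    by_cases h2 : 2 * v ≤ n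
    · have hs := sum_sdiff (G := G) a b a
      have hle : ∑ y : Ω, (outN G a b a \ outN G a b y).card ≤ ∑ y : Ω, d := by
        refine sum_le_sum fun y _ => ?_
        have h4 := half (G := G) a b a y
        have h5 := hcl a y
        omega
      rw [hs, sum_const, card_univ, smul_eq_mul] at hle
      -- v * (n - v) ≤ n * d
      have h6 : v * n ≤ 2 * (n * d) := by
        calc v * n ≤ v * (2 * (n - v)) := Nat.mul_le_mul_left _ (by omega)
          _ = 2 * (v * (n - v)) := by ring
          _ ≤ 2 * (n * d) := Nat.mul_le_mul_left _ hle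
      have hn0 : 0 < n := Fintype.card_pos_iff.2 ⟨a⟩
      have h7 : v ≤ 2 * d := by
        have : v * n ≤ (2 * d) * n := by linarith [h6, mul_comm n d]
        exact Nat.le_of_mul_le_mul_right this hn0
      nlinarith
    · push Not at h2
      -- n < 2 v
      have hs := sum_D (G := G) a
      have hle : ∑ y : Ω, D G a y ≤ ∑ y ∈ univ.erase a, 2 * d := by
        rw [← add_sum_erase univ _ (mem_univ a), D_self, zero_add]
        exact sum_le_sum fun y _ => hcl a y
      rw [sum_const, smul_eq_mul, card_erase_of_mem (mem_univ a), card_univ] at hle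
      have hout : ∀ z : Ω, z ∉ outN G a b a → (outN G a z a).card ≤ n - v := by
        intro z hz
        have hdis : Disjoint (outN G a z a) (outN G a b a) := by
          rw [Finset.disjoint_left]
          intro w hw hw'
          rw [mem_outN] at hw hw' hz
          exact hz (rel_trans hw' (rel_symm hw))
        have := card_le_univ ((outN G a z a) ∪ (outN G a b a))
        rw [card_union_of_disjoint hdis] at this
        omega
      have hin : ∀ z : Ω, z ∈ outN G a b a → (outN G a z a).card = v := by
        intro z hz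
        rw [hv]
        congr 1
        ext w
        rw [mem_outN] at hz ⊢
        rw [mem_outN]
        exact ⟨fun h => rel_trans hz h, fun h => rel_trans (rel_symm hz) h⟩
      have hge : v * (n - v) + (n - v) * v ≤ ∑ z : Ω, (n - (outN G a z a).card) := by
        rw [← sum_filter_add_sum_filter_not univ (fun z => z ∈ outN G a b a)]
        refine add_le_add ?_ ?_
        · have e1 : ∑ z ∈ univ.filter (fun z => z ∈ outN G a b a), (n - (outN G a z a).card) =
              ∑ z ∈ univ.filter (fun z => z ∈ outN G a b a), (n - v) :=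
            sum_congr rfl fun z hz => by rw [hin z (mem_filter.1 hz).2]
          rw [e1, sum_const, smul_eq_mul, filter_mem_eq_inter, univ_inter]
        · have e1 : ∑ z ∈ univ.filter (fun z => ¬ z ∈ outN G a b a), v ≤
              ∑ z ∈ univ.filter (fun z => ¬ z ∈ outN G a b a), (n - (outN G a z a).card) :=
            sum_le_sum fun z hz => by
              have := hout z (mem_filter.1 hz).2
              omega
          refine le_trans (le_of_eq ?_) e1
          rw [sum_const, smul_eq_mul, filter_not, filter_mem_eq_inter, univ_inter, card_univ_sdiff]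
      rw [← hs] at hge
      have hge2 := hge.trans hle
      -- 2 v (n - v) ≤ (n-1) * (2d)
      have hw : n - v ≤ 2 * d := by
        have h8 : v * (n - v) ≤ (n - 1) * d := by nlinarith
        have h9 : n * (n - v) ≤ n * (2 * d) := by
          calc n * (n - v) ≤ (2 * v) * (n - v) := Nat.mul_le_mul_right _ h2.le
            _ = 2 * (v * (n - v)) := by ring
            _ ≤ 2 * ((n - 1) * d) := Nat.mul_le_mul_left _ h8
            _ ≤ 2 * (n * d) := Nat.mul_le_mul_left _ (Nat.mul_le_mul_right _ (Nat.sub_le _ _))
            _ = n * (2 * d) := by ring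
        have hn0 : 0 < n := Fintype.card_pos_iff.2 ⟨a⟩
        exact Nat.le_of_mul_le_mul_left h9 hn0
      have hc : c ∉ outN G a b a := by
        rw [mem_outN]; exact hn
      have hvc := valency_mul hprim hac
      have hdc := hcl a c
      have hoc := hout c hc
      have : (outN G a c a).card * D G a c ≤ (n - v) * (2 * d) := Nat.mul_le_mul hoc hdc
      have h10 : (n - v) * (2 * d) ≤ (2 * d) * (2 * d) := Nat.mul_le_mul_right _ hw
      nlinarith
  · push Not at h3
    by_cases h2 : 2 * v ≤ n
    · nlinarith
    · push Not at h2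
      nlinarith

/-- two permutations whose supports meet in exactly one point have a 3-cycle as commutator -/
theorem commutator_threeCycle {α : Type*} [Fintype α] [DecidableEq α] {g h : Equiv.Perm α} {a : α}
    (ha : g a ≠ a) (ha' : h a ≠ a) (hgh : ∀ x, g x ≠ x → h x ≠ x → x = a) :
    Equiv.Perm.IsThreeCycle (g * h * g⁻¹ * h⁻¹) := by
  have hb : h (g a) = g a := by
    by_contra hcon
    exact ha (hgh (g a) (fun h1 => ha (g.injective h1)) hcon)
  have hc : g (h a) = h a := by
    by_contra hcon
    exact ha' (hgh (h a) hcon (fun h1 => ha' (h.injective h1)))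
  have hbc : g a ≠ h a := by
    intro h1
    have h2 : g (g a) = g a := by
      rw [h1]; exact hc
    exact ha (g.injective h2)
  have key : g * h * g⁻¹ * h⁻¹ = Equiv.swap a (h a) * Equiv.swap a (g a) := by
    ext x
    simp only [Equiv.Perm.mul_apply]
    by_cases hxa : x = a
    · subst hxa
      -- x = a : h⁻¹ a is moved by h and ≠ a
      have h1 : h (h⁻¹ x) = x := by simp
      have h2 : h⁻¹ x ≠ x := fun e => ha' (by rw [e] at h1; exact h1)
      have h3 : h (h⁻¹ x) ≠ h⁻¹ x := by rw [h1]; exact h2.symm
      have h4 : g (h⁻¹ x) = h⁻¹ x := by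
        by_contra hcon
        exact h2 (hgh _ hcon h3)
      have h5 : g⁻¹ (h⁻¹ x) = h⁻¹ x := by
        rw [Equiv.Perm.inv_eq_iff_eq]; exact h4.symm
      rw [h5, h1, Equiv.swap_apply_left, Equiv.swap_apply_of_ne_of_ne ha hbc]
    by_cases hxb : x = g a
    · have h1 : h⁻¹ x = x := by
        rw [Equiv.Perm.inv_eq_iff_eq, hxb]; exact hb.symm
      have h2 : g⁻¹ x = a := by rw [Equiv.Perm.inv_eq_iff_eq]; exact hxb
      rw [h1, h2, hc, hxb, Equiv.swap_apply_right, Equiv.swap_apply_left]
    by_cases hxc : x = h a
    · have h1 : h⁻¹ x = a := by rw [Equiv.Perm.inv_eq_iff_eq]; exact hxc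
      have h2 : g (g⁻¹ a) = a := by simp
      have h3 : g⁻¹ a ≠ a := fun e => ha (by rw [e] at h2; exact h2)
      have h4 : h (g⁻¹ a) = g⁻¹ a := by
        by_contra hcon
        exact h3 (hgh _ (by rw [h2]; exact h3.symm) hcon)
      rw [h1, h4, h2, hxc, Equiv.swap_apply_of_ne_of_ne ha' hbc.symm, Equiv.swap_apply_right]
    · rw [Equiv.swap_apply_of_ne_of_ne hxa hxb, Equiv.swap_apply_of_ne_of_ne hxa hxc]
      -- h⁻¹ x ≠ a, g⁻¹ x ≠ a
      have e1 : h⁻¹ x ≠ a := fun e => hxc ((Equiv.Perm.inv_eq_iff_eq.1 e))
      have e2 : g⁻¹ x ≠ a := fun e => hxb ((Equiv.Perm.inv_eq_iff_eq.1 e))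
      by_cases hm : h x = x
      · have h1 : h⁻¹ x = x := by rw [Equiv.Perm.inv_eq_iff_eq]; exact hm.symm
        rw [h1]
        by_cases hg : g x = x
        · have h2 : g⁻¹ x = x := by rw [Equiv.Perm.inv_eq_iff_eq]; exact hg.symm
          rw [h2, hm, hg]
        · have h2 : g (g⁻¹ x) = x := by simp
          have h3 : g⁻¹ x ≠ x := fun e => hg (by rw [e] at h2; exact h2)
          have h4 : h (g⁻¹ x) = g⁻¹ x := by
            by_contra hcon
            exact e2 (hgh _ (by rw [h2]; exact h3.symm) hcon)
          rw [h4, h2]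
      · have hg : g x = x := by
          by_contra hcon
          exact hxa (hgh _ hcon hm)
        have h2 : h (h⁻¹ x) = x := by simp
        have h3 : h⁻¹ x ≠ x := fun e => hm (by rw [e] at h2; exact h2)
        have h4 : g (h⁻¹ x) = h⁻¹ x := by
          by_contra hcon
          exact e1 (hgh _ hcon (by rw [h2]; exact h3.symm))
        have h5 : g⁻¹ (h⁻¹ x) = h⁻¹ x := by
          rw [Equiv.Perm.inv_eq_iff_eq]; exact h4.symm
        rw [h5, h2, hg]
  rw [key]
  exact Equiv.Perm.isThreeCycle_swap_mul_swap_same ha'.symm ha.symm (Ne.symm hbc)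

/-- in a 2-transitive action, a small support can be moved to meet itself in one point -/
theorem exists_meet [DecidableEq Ω] [Finite G] (h2 : ∀ a b c : Ω, a ≠ b → a ≠ c → rel G a b a c) (S : Finset Ω) {a : Ω} (ha : a ∈ S)
    (hS : (S.card - 1) ^ 2 + 1 < Fintype.card Ω) :
    ∃ x : G, x • a = a ∧ ∀ y ∈ S, x • y ∈ S → y = a := by
  classical
  by_contra hcon
  push Not at hcon
  haveI : Fintype G := Fintype.ofFinite G
  let H : Finset G := univ.filter (fun x => x • a = a)
  let f : Ω → Ω → ℕ := fun c d => (H.filter (fun x => x • c = d)).card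
  have hf : ∀ c d d' : Ω, d ≠ a → d' ≠ a → f c d = f c d' := by
    intro c d d' hd hd'
    obtain ⟨y, hy1, hy2⟩ := h2 a d d' hd.symm hd'.symm
    refine card_bij (fun x _ => y * x) ?_ ?_ ?_
    · intro x hx
      simp only [H, mem_filter, mem_univ, true_and] at hx ⊢
      rw [mul_smul, mul_smul, hx.1, hx.2]
      exact ⟨hy1, hy2⟩
    · intro x _ x' _ hxx
      exact mul_left_cancel hxx
    · intro x hx
      simp only [H, mem_filter, mem_univ, true_and] at hx ⊢
      refine ⟨y⁻¹ * x, ?_, by simp⟩
      rw [mul_smul, mul_smul, hx.1, hx.2]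
      exact ⟨by rw [inv_smul_eq_iff]; exact hy1.symm, by rw [inv_smul_eq_iff]; exact hy2.symm⟩
  have hsum : ∀ c d : Ω, c ≠ a → d ≠ a → (Fintype.card Ω - 1) * f c d = H.card := by
    intro c d hc hd
    have e1 : H.card = ∑ d' ∈ univ.erase a, f c d' := by
      refine card_eq_sum_card_fiberwise ?_
      intro x hx
      simp only [H, coe_filter, mem_univ, true_and, Set.mem_setOf_eq] at hx
      simp only [coe_erase, coe_univ, Set.mem_diff, Set.mem_univ, true_and, Set.mem_singleton_iff]
      intro e
      exact hc (MulAction.injective x (e.trans hx.symm))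
    rw [e1, sum_congr rfl (fun d' hd' => hf c d' d (ne_of_mem_erase hd') hd), sum_const, smul_eq_mul,
      card_erase_of_mem (mem_univ a), card_univ]
  have hH : 0 < H.card := card_pos.2 ⟨1, by simp [H]⟩
  have hcov : H.card ≤ ∑ c ∈ S.erase a, ∑ d ∈ S.erase a, f c d := by
    have e1 : H ⊆ (S.erase a).biUnion (fun c => (S.erase a).biUnion (fun d => H.filter (fun x => x • c = d))) := by
      intro x hx
      have hxa : x • a = a := (mem_filter.1 hx).2
      obtain ⟨y, hyS, hyS', hya⟩ := hcon x hxa
      rw [mem_biUnion]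
      refine ⟨y, mem_erase.2 ⟨hya, hyS⟩, ?_⟩
      rw [mem_biUnion]
      refine ⟨x • y, mem_erase.2 ⟨?_, hyS'⟩, mem_filter.2 ⟨hx, rfl⟩⟩
      intro e
      exact hya (MulAction.injective x (e.trans hxa.symm))
    refine (card_le_card e1).trans (card_biUnion_le.trans (sum_le_sum fun c _ => card_biUnion_le))
  have h3 : (Fintype.card Ω - 1) * H.card ≤ (S.card - 1) ^ 2 * H.card := by
    calc (Fintype.card Ω - 1) * H.card ≤ (Fintype.card Ω - 1) * ∑ c ∈ S.erase a, ∑ d ∈ S.erase a, f c d :=
          Nat.mul_le_mul_left _ hcov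
      _ = ∑ c ∈ S.erase a, ∑ d ∈ S.erase a, (Fintype.card Ω - 1) * f c d := by
          rw [mul_sum]
          exact sum_congr rfl fun c _ => mul_sum _ _ _
      _ = ∑ c ∈ S.erase a, ∑ d ∈ S.erase a, H.card :=
          sum_congr rfl fun c hc => sum_congr rfl fun d hd =>
            hsum c d (ne_of_mem_erase hc) (ne_of_mem_erase hd)
      _ = (S.card - 1) ^ 2 * H.card := by
          rw [sum_const, sum_const, smul_eq_mul, smul_eq_mul, card_erase_of_mem ha]
          ring
  have h4 := Nat.le_of_mul_le_mul_right h3 hH
  omega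

theorem main [Finite G] [DecidableEq Ω] (hprim : IsPreprimitive G Ω)
    (hA : ¬ alternatingGroup Ω ≤ (toPermHom G Ω).range) (g : G) (a : Ω) (hg : g • a ≠ a) :
    Fintype.card Ω ≤ (2 * (univ.filter (fun x : Ω => g • x ≠ x)).card + 1) ^ 2 := by
  classical
  by_cases h2 : ∀ a b c : Ω, a ≠ b → a ≠ c → rel G a b a c
  · by_contra hcon
    push Not at hcon
    set S := univ.filter (fun x : Ω => g • x ≠ x) with hS
    have haS : a ∈ S := mem_filter.2 ⟨mem_univ _, hg⟩
    have h1 : (S.card - 1) ^ 2 + 1 < Fintype.card Ω := by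
      refine lt_of_le_of_lt ?_ hcon
      have : S.card - 1 ≤ S.card := Nat.sub_le _ _
      nlinarith [Nat.pow_le_pow_left this 2]
    obtain ⟨x, hxa, hx⟩ := exists_meet h2 S haS h1
    apply hA
    have h3 := commutator_threeCycle (g := toPermHom G Ω g) (h := toPermHom G Ω (x⁻¹ * g * x)) (a := a)
      hg (by
        change (x⁻¹ * g * x) • a ≠ a
        rw [mul_smul, mul_smul, hxa]
        intro e
        rw [inv_smul_eq_iff, hxa] at e
        exact hg e) (by
        intro y hy1 hy2
        refine hx y (mem_filter.2 ⟨mem_univ _, hy1⟩) (mem_filter.2 ⟨mem_univ _, ?_⟩)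
        intro e
        apply hy2
        change (x⁻¹ * g * x) • y = y
        rw [mul_smul, mul_smul, e, inv_smul_smul])
    have h4 : IsPreprimitive (toPermHom G Ω).range Ω := by
      refine IsPreprimitive.of_surjective (M := G) (α := Ω) (φ := (toPermHom G Ω).rangeRestrict)
        (f := { toFun := id, map_smul' := fun _ _ => rfl }) Function.surjective_id
    refine Equiv.Perm.alternatingGroup_le_of_isPreprimitive_of_isThreeCycle_mem h4 h3 ?_
    exact ⟨g * (x⁻¹ * g * x) * g⁻¹ * (x⁻¹ * g * x)⁻¹, by simp only [map_mul, map_inv]⟩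
  · push Not at h2
    obtain ⟨a1, b1, c1, hab, hac, hn⟩ := h2
    -- the pair (a, g a) has a further colour
    haveI := hprim.toIsPretransitive
    have hex : ∃ c, a ≠ c ∧ ¬ rel G a (g • a) a c := by
      by_contra hcon
      push Not at hcon
      apply hn
      obtain ⟨k, hk⟩ := exists_smul_eq G a1 a
      have hb : a ≠ k • b1 := fun e => hab (MulAction.injective k (hk.trans e))
      have hc : a ≠ k • c1 := fun e => hac (MulAction.injective k (hk.trans e))
      have h5 := rel_trans (rel_symm (hcon _ hb)) (hcon _ hc)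
      have h6 := rel_trans (rel_smul (G := G) k a1 b1) (by rw [hk]; exact h5)
      have h7 := rel_smul_right k⁻¹ h6
      rw [inv_smul_smul] at h7
      have h8 : k⁻¹ • a = a1 := by rw [inv_smul_eq_iff]; exact hk.symm
      rwa [h8] at h7
    obtain ⟨c, hac', hn'⟩ := hex
    have h3 := uni hprim (Ne.symm hg) hac' hn'
    refine h3.trans (Nat.pow_le_pow_left ?_ 2)
    have := D_le_moved g a
    omega

end CfsgLib.MinDeg28
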