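import Mathlib
import Cfsg.Agent.EqBase

/-! numerics for nilpotent subgroups of symmetric and alternating groups -/

set_option autoImplicit false

namespace CfsgLib.NSNumH12

/-- 2-part of `n!` -/
def v (n : ℕ) : ℕ := padicValNat 2 n.factorial

def s (n : ℕ) : ℕ := 2 ^ v n

theorem v_succ (n : ℕ) : v (n + 1) = v n + padicValNat 2 (n + 1) := by
  unfold v
  have : Fact (Nat.Prime 2) := ⟨Nat.prime_two⟩
  rw [Nat.factorial_succ, padicValNat.mul (by omega) (Nat.factorial_ne_zero _), add_comm]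

theorem v_rec (n : ℕ) : v n = v (n / 2) + n / 2 := by
  have : Fact (Nat.Prime 2) := ⟨Nat.prime_two⟩
  have h1 := padicValNat_mul_div_factorial (p := 2) n
  have h2 := padicValNat_factorial_mul (p := 2) (n / 2)
  unfold v
  rw [← h1, h2]

theorem v_zero : v 0 = 0 := by simp [v]
theorem v_one : v 1 = 0 := by simp [v]

theorem v_mono {a b : ℕ} (h : a ≤ b) : v a ≤ v b := by
  induction h with
  | refl => exact le_rfl
  | step _ ih => exact ih.trans (by rw [v_succ]; omega)

theorem v_odd (k : ℕ) : v (2 * k + 1) = v (2 * k) := by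
  rw [v_rec (2 * k + 1), v_rec (2 * k)]
  have : (2 * k + 1) / 2 = k := by omega
  have h2 : 2 * k / 2 = k := by omega
  rw [this, h2]

theorem v_two_mod (k : ℕ) : v (4 * k + 2) = v (4 * k + 1) + 1 := by
  rw [v_rec (4 * k + 2), v_rec (4 * k + 1)]
  have h1 : (4 * k + 2) / 2 = 2 * k + 1 := by omega
  have h2 : (4 * k + 1) / 2 = 2 * k := by omega
  rw [h1, h2, v_odd]; omega

theorem v_four (k : ℕ) : v (4 * k + 3) + 2 ≤ v (4 * k + 4) := by
  rw [v_rec (4 * k + 3), v_rec (4 * k + 4)]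
  have h1 : (4 * k + 3) / 2 = 2 * k + 1 := by omega
  have h2 : (4 * k + 4) / 2 = 2 * k + 2 := by omega
  rw [h1, h2, v_rec (2 * k + 1), v_rec (2 * k + 2)]
  have h3 : (2 * k + 1) / 2 = k := by omega
  have h4 : (2 * k + 2) / 2 = k + 1 := by omega
  rw [h3, h4]
  have := v_mono (show k ≤ k + 1 by omega)
  omega

theorem v_add (a b : ℕ) : v a + v b ≤ v (a + b) := by
  have : Fact (Nat.Prime 2) := ⟨Nat.prime_two⟩
  unfold v
  rw [← padicValNat.mul (Nat.factorial_ne_zero _) (Nat.factorial_ne_zero _)]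
  exact (padicValNat_dvd_iff_le (Nat.factorial_ne_zero _)).mp
    ((pow_padicValNat_dvd).trans (Nat.factorial_mul_factorial_dvd_factorial_add a b))

theorem v_add_31 (a b : ℕ) (ha : a % 4 = 3) (hb : b % 4 = 1) : v a + v b + 2 ≤ v (a + b) := by
  obtain ⟨i, hi⟩ : ∃ i, a = 4 * i + 3 := ⟨a / 4, by omega⟩
  obtain ⟨j, hj⟩ : ∃ j, b = 4 * j + 1 := ⟨b / 4, by omega⟩
  subst hi hj
  have h1 : v (4 * j + 1) = v (4 * j) := by
    have := v_odd (2 * j)
    rw [show 2 * (2 * j) = 4 * j by ring] at this; exact this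
  have h2 := v_add (4 * i + 3) (4 * j)
  have h3 := v_four (i + j)
  have h4 : 4 * i + 3 + 4 * j = 4 * (i + j) + 3 := by ring
  have h5 : 4 * i + 3 + (4 * j + 1) = 4 * (i + j) + 4 := by ring
  rw [h4] at h2
  rw [h5]; omega

theorem v_add_32 (a b : ℕ) (ha : a % 4 = 3) (hb : b % 4 = 2) : v a + v b + 1 ≤ v (a + b) := by
  obtain ⟨i, hi⟩ : ∃ i, a = 4 * i + 3 := ⟨a / 4, by omega⟩
  obtain ⟨j, hj⟩ : ∃ j, b = 4 * j + 2 := ⟨b / 4, by omega⟩
  subst hi hj
  have h0 := v_two_mod j
  have h1 : v (4 * j + 1) = v (4 * j) := by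
    have := v_odd (2 * j)
    rw [show 2 * (2 * j) = 4 * j by ring] at this; exact this
  have h2 := v_add (4 * i + 3) (4 * j)
  have h3 := v_four (i + j)
  have h4 : 4 * i + 3 + 4 * j = 4 * (i + j) + 3 := by ring
  have h5 : 4 * i + 3 + (4 * j + 2) = 4 * (i + j) + 5 := by ring
  have h6 := v_mono (show 4 * (i + j) + 4 ≤ 4 * (i + j) + 5 by omega)
  rw [h4] at h2
  rw [h5]; omega

theorem v_add_33 (a b : ℕ) (ha : a % 4 = 3) (hb : b % 4 = 3) : v a + v b + 2 ≤ v (a + b) := by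
  obtain ⟨i, hi⟩ : ∃ i, a = 4 * i + 3 := ⟨a / 4, by omega⟩
  obtain ⟨j, hj⟩ : ∃ j, b = 4 * j + 3 := ⟨b / 4, by omega⟩
  subst hi hj
  have h1 : v (4 * j + 3) = v (4 * j + 2) := by
    have := v_odd (2 * j + 1)
    rw [show 2 * (2 * j + 1) = 4 * j + 2 by ring] at this; exact this
  have h2 := v_add_32 (4 * i + 3) (4 * j + 2) (by omega) (by omega)
  have h5 : 4 * i + 3 + (4 * j + 3) = 4 * (i + j + 1) + 2 := by ring
  have h4 : 4 * i + 3 + (4 * j + 2) = 4 * (i + j + 1) + 1 := by ring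
  have h6 := v_two_mod (i + j + 1)
  rw [h4] at h2
  rw [h5]; omega

/-- twice the bound for the symmetric group -/
def F (n : ℕ) : ℕ := if n % 4 = 3 then 3 * s n else 2 * s n

theorem s_pos (n : ℕ) : 0 < s n := pow_pos (by norm_num) _

theorem F_pos (n : ℕ) : 0 < F n := by
  unfold F; have := s_pos n; split_ifs <;> omega

theorem s_mul_le {a b c k : ℕ} (h : v a + v b + k ≤ v c) : 2 ^ k * (s a * s b) ≤ s c := by
  unfold s
  rw [← pow_add, ← pow_add]
  exact Nat.pow_le_pow_right (by norm_num) (by omega)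

theorem s_le_F (n : ℕ) : 2 * s n ≤ F n := by
  unfold F; split_ifs <;> omega

theorem F_le (n : ℕ) : F n ≤ 3 * s n := by
  unfold F; split_ifs <;> omega

theorem F_add (a b : ℕ) : F a * F b ≤ 2 * F (a + b) := by
  have key : ∀ a b : ℕ, a % 4 = 3 → b % 4 ≠ 3 → F a * F b ≤ 2 * F (a + b) := by
    intro a b ha hb
    have hFa : F a = 3 * s a := by unfold F; rw [if_pos ha]
    have hFb : F b = 2 * s b := by unfold F; rw [if_neg hb]
    rw [hFa, hFb]
    rcases (show b % 4 = 0 ∨ b % 4 = 1 ∨ b % 4 = 2 by omega) with h | h | h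
    · have hFc : F (a + b) = 3 * s (a + b) := by unfold F; rw [if_pos (by omega)]
      rw [hFc]
      have := s_mul_le (k := 0) (v_add a b)
      nlinarith
    · have := s_mul_le (v_add_31 a b ha h)
      have h2 := s_le_F (a + b)
      nlinarith
    · have := s_mul_le (v_add_32 a b ha h)
      have h2 := s_le_F (a + b)
      nlinarith
  by_cases ha : a % 4 = 3
  · by_cases hb : b % 4 = 3
    · have hFa : F a = 3 * s a := by unfold F; rw [if_pos ha]
      have hFb : F b = 3 * s b := by unfold F; rw [if_pos hb]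
      rw [hFa, hFb]
      have := s_mul_le (v_add_33 a b ha hb)
      have h2 := s_le_F (a + b)
      nlinarith
    · exact key a b ha hb
  · by_cases hb : b % 4 = 3
    · have := key b a hb ha
      rw [mul_comm, add_comm]; exact this
    · have hFa : F a = 2 * s a := by unfold F; rw [if_neg ha]
      have hFb : F b = 2 * s b := by unfold F; rw [if_neg hb]
      rw [hFa, hFb]
      have := s_mul_le (k := 0) (v_add a b)
      have h2 := s_le_F (a + b)
      nlinarith

theorem s_mono {a b : ℕ} (h : a ≤ b) : s a ≤ s b := Nat.pow_le_pow_right (by norm_num) (v_mono h)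

theorem s_four (i : ℕ) : 4 * s (4 * i + 3) ≤ s (4 * i + 4) := by
  have h1 := v_four i
  unfold s
  calc 4 * 2 ^ v (4 * i + 3) = 2 ^ (v (4 * i + 3) + 2) := by rw [pow_add]; ring
    _ ≤ _ := Nat.pow_le_pow_right (by norm_num) h1

theorem F_succ (n : ℕ) : F n ≤ F (n + 1) := by
  by_cases h : n % 4 = 3
  · obtain ⟨i, hi⟩ : ∃ i, n = 4 * i + 3 := ⟨n / 4, by omega⟩
    have h2 := s_four i
    subst hi
    have h3 := F_le (4 * i + 3)
    have h4 := s_le_F (4 * i + 3 + 1)
    have h5 : 4 * i + 3 + 1 = 4 * i + 4 := by ring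
    rw [h5] at h4 ⊢
    have := s_pos (4 * i + 3)
    omega
  · have hFa : F n = 2 * s n := by unfold F; rw [if_neg h]
    rw [hFa]
    have := s_mono (show n ≤ n + 1 by omega)
    have h2 := s_le_F (n + 1)
    omega

theorem F_mono {a b : ℕ} (h : a ≤ b) : F a ≤ F b := by
  induction h with
  | refl => exact le_rfl
  | step _ ih => exact ih.trans (F_succ _)

/-- `F (n+1) ≥ 2 F n` for odd `n` -/
theorem F_succ_odd (n : ℕ) (h : n % 2 = 1) : 2 * F n ≤ F (n + 1) := by
  rcases (show n % 4 = 1 ∨ n % 4 = 3 by omega) with h1 | h1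
  · obtain ⟨i, hi⟩ : ∃ i, n = 4 * i + 1 := ⟨n / 4, by omega⟩
    have hFa : F n = 2 * s n := by unfold F; rw [if_neg (by omega)]
    have h2 := v_two_mod i
    have h3 : s (4 * i + 2) = 2 * s (4 * i + 1) := by unfold s; rw [h2, pow_succ]; ring
    have h4 := s_le_F (n + 1)
    rw [hFa]
    subst hi
    rw [show 4 * i + 1 + 1 = 4 * i + 2 by ring] at h4 ⊢
    omega
  · obtain ⟨i, hi⟩ : ∃ i, n = 4 * i + 3 := ⟨n / 4, by omega⟩
    have h2 := s_four i
    subst hi
    have h3 := F_le (4 * i + 3)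
    have h4 := s_le_F (4 * i + 3 + 1)
    have h5 : 4 * i + 3 + 1 = 4 * i + 4 := by ring
    rw [h5] at h4 ⊢
    have := s_pos (4 * i + 3)
    omega

theorem F_add_two (n : ℕ) : 2 * F n ≤ F (n + 2) := by
  rcases Nat.even_or_odd n with ⟨k, hk⟩ | ⟨k, hk⟩
  · exact (Nat.mul_le_mul_left 2 (F_succ n)).trans (F_succ_odd (n + 1) (by omega))
  · exact (F_succ_odd n (by omega)).trans (F_succ _)

theorem s_lower (n : ℕ) : 2 ^ n ≤ s n * (n + 1) := by
  induction n using Nat.strong_induction_on with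
  | _ n ih =>
    rcases Nat.eq_zero_or_pos n with h | h
    · subst h; simp [s, v]
    · have h1 := ih (n / 2) (by omega)
      have h2 : s n = s (n / 2) * 2 ^ (n / 2) := by
        unfold s; rw [v_rec n, pow_add]
      rw [h2]
      rcases Nat.even_or_odd n with ⟨k, hk⟩ | ⟨k, hk⟩
      · have h3 : n / 2 = k := by omega
        rw [h3] at h1 ⊢
        have h4 : 2 ^ n = 2 ^ k * 2 ^ k := by rw [← pow_add, hk]
        rw [h4]
        calc 2 ^ k * 2 ^ k ≤ (s k * (k + 1)) * 2 ^ k := Nat.mul_le_mul_right _ h1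
          _ ≤ (s k * (n + 1)) * 2 ^ k := Nat.mul_le_mul_right _ (Nat.mul_le_mul_left _ (by omega))
          _ = s k * 2 ^ k * (n + 1) := by ring
      · have h3 : n / 2 = k := by omega
        rw [h3] at h1 ⊢
        have h4 : 2 ^ n = 2 ^ k * 2 ^ k * 2 := by rw [← pow_add, ← pow_succ, hk]; congr 1; ring
        rw [h4]
        calc 2 ^ k * 2 ^ k * 2 ≤ (s k * (k + 1)) * 2 ^ k * 2 :=
              Nat.mul_le_mul_right _ (Nat.mul_le_mul_right _ h1)
          _ = s k * 2 ^ k * (n + 1) := by rw [hk]; ring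

/-- four times the bound for the alternating group -/
def K (n : ℕ) : ℕ :=
  if n = 0 then 4 else if n = 1 then 4 else if n = 3 then 12 else if n = 5 then 20 else
  if n = 6 then 36 else if n = 9 then 324 else F n

theorem v_small (n : ℕ) (h : n < 32) : v n = n / 2 + n / 4 + n / 8 + n / 16 := by
  rw [v_rec n, v_rec (n / 2), v_rec (n / 2 / 2), v_rec (n / 2 / 2 / 2),
    v_rec (n / 2 / 2 / 2 / 2)]
  have h1 : n / 2 / 2 / 2 / 2 / 2 = 0 := by omega
  rw [h1, v_zero]
  omega

theorem F_small (n : ℕ) (h : n < 32) :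
    F n = (if n % 4 = 3 then 3 else 2) * 2 ^ (n / 2 + n / 4 + n / 8 + n / 16) := by
  unfold F s
  rw [v_small n h]
  split_ifs <;> rfl

theorem F_le_K (n : ℕ) : F n ≤ K n := by
  unfold K
  split_ifs with h0 h1 h3 h5 h6 h9
  · subst h0; rw [F_small _ (by norm_num)]; norm_num
  · subst h1; rw [F_small _ (by norm_num)]; norm_num
  · subst h3; rw [F_small _ (by norm_num)]; norm_num
  · subst h5; rw [F_small _ (by norm_num)]; norm_num
  · subst h6; rw [F_small _ (by norm_num)]; norm_num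
  · subst h9; rw [F_small _ (by norm_num)]; norm_num
  · exact le_rfl

theorem K_le (n : ℕ) : K n ≤ 2 * F n := by
  unfold K
  split_ifs with h0 h1 h3 h5 h6 h9
  · subst h0; rw [F_small _ (by norm_num)]; norm_num
  · subst h1; rw [F_small _ (by norm_num)]; norm_num
  · subst h3; rw [F_small _ (by norm_num)]; norm_num
  · subst h5; rw [F_small _ (by norm_num)]; norm_num
  · subst h6; rw [F_small _ (by norm_num)]; norm_num
  · subst h9; rw [F_small _ (by norm_num)]; norm_num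
  · omega

/-- exceptional degrees -/
def Exc (n : ℕ) : Prop := n = 1 ∨ n = 3 ∨ n = 5 ∨ n = 6 ∨ n = 9

theorem K_eq (n : ℕ) (h0 : n ≠ 0) (h : ¬ Exc n) : K n = F n := by
  unfold Exc at h
  push Not at h
  obtain ⟨h1, h3, h5, h6, h9⟩ := h
  unfold K
  rw [if_neg h0, if_neg h1, if_neg h3, if_neg h5, if_neg h6, if_neg h9]

theorem K_add (a b : ℕ) (ha : a ≠ 0) (hb : b ≠ 0) : K a * K b ≤ 4 * K (a + b) := by
  have key : ∀ a b : ℕ, a ≠ 0 → b ≠ 0 → ¬ Exc a → K a * K b ≤ 4 * K (a + b) := by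
    intro a b ha hb h
    rw [K_eq a ha h]
    calc F a * K b ≤ F a * (2 * F b) := Nat.mul_le_mul_left _ (K_le b)
      _ = 2 * (F a * F b) := by ring
      _ ≤ 2 * (2 * F (a + b)) := Nat.mul_le_mul_left _ (F_add a b)
      _ ≤ 2 * (2 * K (a + b)) := Nat.mul_le_mul_left _ (Nat.mul_le_mul_left _ (F_le_K _))
      _ = _ := by ring
  by_cases h : Exc a
  · by_cases h' : Exc b
    · unfold Exc at h h'
      rcases h with h | h | h | h | h <;> rcases h' with h' | h' | h' | h' | h' <;> subst h h' <;>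
        norm_num [K, F_small]
    · rw [mul_comm, add_comm]; exact key b a hb ha h'
  · exact key a b ha hb h

theorem F_uv (u v : ℕ) (hu : 2 ≤ u) (hv : 2 ≤ v) (hc : u.Coprime v) : F u * F v ≤ F (u * v) := by
  obtain ⟨a, rfl⟩ : ∃ a, u = a + 2 := ⟨u - 2, by omega⟩
  obtain ⟨b, rfl⟩ : ∃ b, v = b + 2 := ⟨v - 2, by omega⟩
  have h1 := F_add (a + 2) (b + 2)
  have hab : a ≠ 0 ∨ b ≠ 0 := by
    by_contra hne
    push Not at hne
    obtain ⟨rfl, rfl⟩ := hne
    norm_num at hc
  have hmul : (a + 2) * (b + 2) = a * b + 2 * a + 2 * b + 4 := by ring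
  by_cases hs : (a + 2) * (b + 2) = (a + 2) + (b + 2) + 1
  · rw [hs]
    have h2 : a * b + a + b = 1 := by omega
    have hodd : (a + 2 + (b + 2)) % 2 = 1 := by
      rcases Nat.eq_zero_or_pos a with h | h
      · subst h; omega
      · rcases Nat.eq_zero_or_pos b with h' | h'
        · subst h'; omega
        · nlinarith
    have := F_succ_odd _ hodd
    omega
  · have h3 : a + 2 + (b + 2) + 2 ≤ (a + 2) * (b + 2) := by
      have : a + 2 + (b + 2) + 1 ≤ (a + 2) * (b + 2) := by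
        rw [hmul]
        rcases hab with h | h <;> have := Nat.zero_le (a * b) <;> omega
      omega
    have h4 := F_add_two (a + 2 + (b + 2))
    have h5 := F_mono h3
    omega

/-- valuation bound -/
theorem pow_bound_large (p w n : ℕ) (hp : 5 ≤ p) (hn : 9 ≤ n) (hw : (p - 1) * w ≤ n - 1) :
    4 * p ^ w ≤ F n := by
  have h1 : p ^ 4 ≤ 5 ^ (p - 1) := by
    obtain ⟨q, rfl⟩ : ∃ q, p = q + 5 := ⟨p - 5, by omega⟩
    rw [show q + 5 - 1 = q + 4 by omega]
    clear hp hw
    induction q with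
    | zero => norm_num
    | succ q ih =>
      rw [show q + 1 + 4 = (q + 4) + 1 by ring, pow_succ]
      have : (q + 1 + 5) ^ 4 ≤ (q + 5) ^ 4 * 5 := by
        ring_nf
        nlinarith [sq_nonneg q, Nat.zero_le (q ^ 3), Nat.zero_le (q ^ 4)]
      exact this.trans (Nat.mul_le_mul_right _ ih)
  have h2 : (p ^ w) ^ 4 ≤ 5 ^ (n - 1) := by
    calc (p ^ w) ^ 4 = (p ^ 4) ^ w := by rw [← pow_mul, ← pow_mul, mul_comm]
      _ ≤ (5 ^ (p - 1)) ^ w := Nat.pow_le_pow_left h1 w
      _ = 5 ^ ((p - 1) * w) := by rw [pow_mul]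
      _ ≤ _ := Nat.pow_le_pow_right (by norm_num) hw
  have h3 : 16 * 5 ^ (n - 1) * (n + 1) ^ 4 ≤ 16 ^ n := by
    obtain ⟨q, rfl⟩ : ∃ q, n = q + 9 := ⟨n - 9, by omega⟩
    rw [show q + 9 - 1 = q + 8 by omega]
    clear hn hw h2
    induction q with
    | zero => norm_num
    | succ q ih =>
      have : 5 * (q + 1 + 9 + 1) ^ 4 ≤ 16 * (q + 9 + 1) ^ 4 := by
        ring_nf
        nlinarith [sq_nonneg q, Nat.zero_le (q ^ 3), Nat.zero_le (q ^ 4)]
      calc 16 * 5 ^ (q + 1 + 8) * (q + 1 + 9 + 1) ^ 4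
          = 16 * 5 ^ (q + 8) * (5 * (q + 1 + 9 + 1) ^ 4) := by
            rw [show q + 1 + 8 = (q + 8) + 1 by ring, pow_succ]; ring
        _ ≤ 16 * 5 ^ (q + 8) * (16 * (q + 9 + 1) ^ 4) := Nat.mul_le_mul_left _ this
        _ = 16 * (16 * 5 ^ (q + 8) * (q + 9 + 1) ^ 4) := by ring
        _ ≤ 16 * 16 ^ (q + 9) := Nat.mul_le_mul_left _ ih
        _ = _ := by rw [show q + 1 + 9 = (q + 9) + 1 by ring, pow_succ]; ring
  have h4 : (2 * p ^ w * (n + 1)) ^ 4 ≤ (2 ^ n) ^ 4 := by
    calc (2 * p ^ w * (n + 1)) ^ 4 = 16 * (p ^ w) ^ 4 * (n + 1) ^ 4 := by ring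
      _ ≤ 16 * 5 ^ (n - 1) * (n + 1) ^ 4 :=
          Nat.mul_le_mul_right _ (Nat.mul_le_mul_left _ h2)
      _ ≤ 16 ^ n := h3
      _ = (2 ^ n) ^ 4 := by rw [← pow_mul, mul_comm, pow_mul]; norm_num
  have h5 : 2 * p ^ w * (n + 1) ≤ 2 ^ n := le_of_pow_le_pow_left₀ (by norm_num) (Nat.zero_le _) h4
  have h6 := s_lower n
  have h7 : 2 * p ^ w ≤ s n := by
    by_contra hlt
    have := Nat.mul_lt_mul_of_pos_right (not_le.mp hlt) (Nat.succ_pos n)
    rw [Nat.succ_eq_add_one] at this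
    omega
  have := s_le_F n
  omega

theorem pow_bound_three (w n : ℕ) (hn : 24 ≤ n) (hw : 2 * w ≤ n - 1) : 4 * 3 ^ w ≤ F n := by
  have h2 : (3 ^ w) ^ 2 ≤ 3 ^ (n - 1) := by
    rw [← pow_mul, mul_comm]
    exact Nat.pow_le_pow_right (by norm_num) hw
  have h3 : 4 * 3 ^ (n - 1) * (n + 1) ^ 2 ≤ 4 ^ n := by
    obtain ⟨q, rfl⟩ : ∃ q, n = q + 24 := ⟨n - 24, by omega⟩
    rw [show q + 24 - 1 = q + 23 by omega]
    clear hn hw h2
    induction q with
    | zero => norm_num
    | succ q ih =>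
      have : 3 * (q + 1 + 24 + 1) ^ 2 ≤ 4 * (q + 24 + 1) ^ 2 := by
        ring_nf
        have := Nat.zero_le (q ^ 2)
        omega
      calc 4 * 3 ^ (q + 1 + 23) * (q + 1 + 24 + 1) ^ 2
          = 4 * 3 ^ (q + 23) * (3 * (q + 1 + 24 + 1) ^ 2) := by
            rw [show q + 1 + 23 = (q + 23) + 1 by ring, pow_succ]; ring
        _ ≤ 4 * 3 ^ (q + 23) * (4 * (q + 24 + 1) ^ 2) := Nat.mul_le_mul_left _ this
        _ = 4 * (4 * 3 ^ (q + 23) * (q + 24 + 1) ^ 2) := by ring
        _ ≤ 4 * 4 ^ (q + 24) := Nat.mul_le_mul_left _ ih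
        _ = _ := by rw [show q + 1 + 24 = (q + 24) + 1 by ring, pow_succ]; ring
  have h4 : (2 * 3 ^ w * (n + 1)) ^ 2 ≤ (2 ^ n) ^ 2 := by
    calc (2 * 3 ^ w * (n + 1)) ^ 2 = 4 * (3 ^ w) ^ 2 * (n + 1) ^ 2 := by ring
      _ ≤ 4 * 3 ^ (n - 1) * (n + 1) ^ 2 :=
          Nat.mul_le_mul_right _ (Nat.mul_le_mul_left _ h2)
      _ ≤ 4 ^ n := h3
      _ = (2 ^ n) ^ 2 := by rw [← pow_mul, mul_comm, pow_mul]; norm_num
  have h5 : 2 * 3 ^ w * (n + 1) ≤ 2 ^ n := le_of_pow_le_pow_left₀ (by norm_num) (Nat.zero_le _) h4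
  have h6 := s_lower n
  have h7 : 2 * 3 ^ w ≤ s n := by
    by_contra hlt
    have := Nat.mul_lt_mul_of_pos_right (not_le.mp hlt) (Nat.succ_pos n)
    rw [Nat.succ_eq_add_one] at this
    omega
  have := s_le_F n
  omega

theorem w_rec (n : ℕ) : padicValNat 3 n.factorial = padicValNat 3 (n / 3).factorial + n / 3 := by
  have : Fact (Nat.Prime 3) := ⟨Nat.prime_three⟩
  have h1 := padicValNat_mul_div_factorial (p := 3) n
  have h2 := padicValNat_factorial_mul (p := 3) (n / 3)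
  rw [← h1, h2]

theorem w_small (n : ℕ) (h : n < 27) : padicValNat 3 n.factorial = n / 3 + n / 9 := by
  rw [w_rec n, w_rec (n / 3), w_rec (n / 3 / 3)]
  have h1 : n / 3 / 3 / 3 = 0 := by omega
  rw [h1]
  simp
  omega

theorem val_bound (p n : ℕ) (hp : p.Prime) (h2 : p ≠ 2) :
    4 * p ^ (padicValNat p n.factorial) ≤ K n := by
  have : Fact p.Prime := ⟨hp⟩
  have hp3 : 3 ≤ p := by have := hp.two_le; omega
  rcases Nat.eq_zero_or_pos n with h0 | h0
  · subst h0; simp [K]
  have hw : (p - 1) * padicValNat p n.factorial ≤ n - 1 := by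
    have := sub_one_mul_padicValNat_factorial_lt_of_ne_zero (p := p) (n := n) h0.ne'
    omega
  by_cases h3 : p = 3
  · subst h3
    by_cases hn : 24 ≤ n
    · exact (pow_bound_three _ n hn (by simpa using hw)).trans (F_le_K n)
    · push Not at hn
      rw [w_small n (by omega)]
      interval_cases n <;> norm_num [K, F_small]
  · have hp5 : 5 ≤ p := by
      rcases Nat.lt_or_ge p 5 with h | h
      · interval_cases p
        · exact absurd rfl h3
        · exact absurd hp (by norm_num)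
      · exact h
    by_cases hn : 9 ≤ n
    · exact (pow_bound_large p _ n hp5 hn hw).trans (F_le_K n)
    · push Not at hn
      by_cases hpn : p ≤ n
      · have hw1 : padicValNat p n.factorial ≤ 1 := by
          by_contra hlt
          have : 2 ≤ padicValNat p n.factorial := by omega
          have h5 : (p - 1) * 2 ≤ (p - 1) * padicValNat p n.factorial := Nat.mul_le_mul_left _ this
          omega
        have h6 : p ^ (padicValNat p n.factorial) ≤ n := by
          calc p ^ _ ≤ p ^ 1 := Nat.pow_le_pow_right (by omega) hw1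
            _ ≤ n := by rw [pow_one]; exact hpn
        have h7 : 4 * n ≤ K n := by
          have : 5 ≤ n := by omega
          interval_cases n <;> norm_num [K, F_small]
        omega
      · have hw1 : padicValNat p n.factorial = 0 := by
          apply padicValNat.eq_zero_of_not_dvd
          rw [hp.dvd_factorial]; exact hpn
        rw [hw1]
        interval_cases n <;> norm_num [K, F_small]

end CfsgLib.NSNumH12
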