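import Mathlib
import Cfsg.Agent.EqBase
import Cfsg.Agent.LibTransNil
import Cfsg.Agent.LibNSNumH12

/-! nilpotent subgroups of symmetric groups: reductions -/

set_option autoImplicit false

namespace CfsgLib.NSymH12

open Equiv CfsgLib.NSNumH12

theorem decomp {G : Type*} [Group G] [Finite G] (N : Subgroup G) (hN : Group.IsNilpotent N)
    (p : ℕ) [Fact p.Prime] : ∃ P Q : Subgroup G, P ≤ N ∧ Q ≤ N ∧ IsPGroup p P ∧
      (Nat.card P).Coprime (Nat.card Q) ∧ ¬ p ∣ Nat.card Q ∧
      (∀ a ∈ P, ∀ b ∈ Q, a * b = b * a) ∧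
      Nat.card N = Nat.card P * Nat.card Q ∧ (∀ g ∈ N, ∃ a ∈ P, ∃ b ∈ Q, g = a * b) := by
  have hS0 : Nonempty (Sylow p N) := inferInstance
  obtain ⟨S⟩ := hS0
  have hn : (S : Subgroup N).Normal := by
    have h0 := (Group.isNilpotent_of_finite_tfae (G := N)).out 0 3
    exact h0.mp hN p inferInstance S
  obtain ⟨T, hT⟩ := Subgroup.exists_right_complement'_of_coprime (N := (S : Subgroup N))
    S.card_coprime_index
  have hTc : Nat.card T = (S : Subgroup N).index := hT.symm.index_eq_card.symm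
  have hco : (Nat.card (S : Subgroup N)).Coprime (Nat.card T) := by
    rw [hTc]; exact S.card_coprime_index
  have hc1 : Nat.card ((S : Subgroup N).map N.subtype) = Nat.card (S : Subgroup N) :=
    Subgroup.card_map_of_injective N.subtype_injective
  have hc2 : Nat.card (T.map N.subtype) = Nat.card T :=
    Subgroup.card_map_of_injective N.subtype_injective
  refine ⟨(S : Subgroup N).map N.subtype, T.map N.subtype, Subgroup.map_subtype_le _,
    Subgroup.map_subtype_le _, S.isPGroup'.map _, ?_, ?_, ?_, ?_, ?_⟩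
  · rw [hc1, hc2]; exact hco
  · rw [hc2, hTc]; exact S.not_dvd_index
  · rintro _ ⟨a, ha, rfl⟩ _ ⟨b, hb, rfl⟩
    have : a * b = b * a := by
      apply CfsgLib.TransNil.commute_of_coprime N a b
      exact Nat.Coprime.coprime_dvd_left (Subgroup.orderOf_dvd_natCard _ ha)
        (Nat.Coprime.coprime_dvd_right (Subgroup.orderOf_dvd_natCard _ hb) hco)
    exact congrArg N.subtype this
  · rw [hc1, hc2]; exact hT.card_mul_card.symm
  · intro g hg
    obtain ⟨⟨a, b⟩, hab⟩ := hT.2 ⟨g, hg⟩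
    refine ⟨(a : N), ⟨a, a.2, rfl⟩, (b : N), ⟨b, b.2, rfl⟩, ?_⟩
    have := congrArg N.subtype hab
    exact this.symm

variable {X : Type*}

theorem inv_app (e : Perm X) (x : X) : e⁻¹ (e x) = x := e.symm_apply_apply x
theorem app_inv (e : Perm X) (x : X) : e (e⁻¹ x) = x := e.apply_symm_apply x

/-- commuting elements of coprime order that agree at a point fix it -/
theorem fix_of_coprime {a b : Perm X} (hab : a * b = b * a)
    (hco : (orderOf a).Coprime (orderOf b)) {x : X} (h : a x = b x) : a x = x := by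
  have hc : Commute a⁻¹ b := (show Commute a b from hab).inv_left
  have h1 : (a⁻¹ * b) x = x := by
    rw [Perm.mul_apply, ← h, inv_app]
  have h2 : ∀ j : ℕ, ((a⁻¹ * b) ^ j) x = x := by
    intro j
    induction j with
    | zero => rfl
    | succ j ih => rw [pow_succ, Perm.mul_apply, h1, ih]
  obtain ⟨k, hk1, hk2⟩ := Nat.chineseRemainder hco 1 0
  have h3 := h2 k
  rw [hc.mul_pow] at h3
  have h4 : b ^ k = 1 := orderOf_dvd_iff_pow_eq_one.mp ((Nat.modEq_zero_iff_dvd).mp hk2)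
  have h5 : a ^ k = a := by
    have := (pow_eq_pow_iff_modEq (x := a)).mpr hk1
    rw [this, pow_one]
  rw [h4, mul_one, inv_pow, h5] at h3
  calc a x = a (a⁻¹ x) := by rw [h3]
    _ = x := app_inv a x

/-- the image of a subgroup acting on an orbit -/
theorem orbit_faithful {P Q N : Subgroup (Perm X)}
    (hcomm : ∀ a ∈ P, ∀ b ∈ Q, a * b = b * a)
    (hPQ : ∀ g ∈ N, ∃ a ∈ P, ∃ b ∈ Q, g = a * b)
    (htr : ∀ x y : X, ∃ g ∈ N, g x = y) (x0 : X) :
    Function.Injective (MulAction.toPermHom P (MulAction.orbit P x0)) := by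
  rw [injective_iff_map_eq_one]
  intro g hg
  ext y
  obtain ⟨n, hn, rfl⟩ := htr x0 y
  obtain ⟨a, ha, b, hb, rfl⟩ := hPQ n hn
  have h1 : (g : Perm X) (a x0) = a x0 := by
    have h2 := congrArg (fun f : Perm (MulAction.orbit P x0) =>
      ((f ⟨a x0, ⟨⟨a, ha⟩, rfl⟩⟩ : MulAction.orbit P x0) : X)) hg
    exact h2
  have h3 : a * b = b * a := hcomm a ha b hb
  have h4 : (g : Perm X) * b = b * g := hcomm g g.2 b hb
  change (g : Perm X) ((a * b) x0) = (a * b) x0
  rw [h3, Perm.mul_apply]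
  calc (g : Perm X) (b (a x0)) = ((g : Perm X) * b) (a x0) := rfl
    _ = b ((g : Perm X) (a x0)) := by rw [h4]; rfl
    _ = b (a x0) := by rw [h1]

theorem orbit_mul_le [Finite X] {P Q : Subgroup (Perm X)}
    (hcomm : ∀ a ∈ P, ∀ b ∈ Q, a * b = b * a)
    (hco : (Nat.card P).Coprime (Nat.card Q)) (x0 : X) :
    Nat.card (MulAction.orbit P x0) * Nat.card (MulAction.orbit Q x0) ≤ Nat.card X := by
  rw [← Nat.card_prod]
  have hP : ∀ y : MulAction.orbit P x0, ∃ g ∈ P, g x0 = y := by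
    rintro ⟨y, g, rfl⟩; exact ⟨g, g.2, rfl⟩
  have hQ : ∀ y : MulAction.orbit Q x0, ∃ g ∈ Q, g x0 = y := by
    rintro ⟨y, g, rfl⟩; exact ⟨g, g.2, rfl⟩
  choose f hf hf' using hP
  choose k hk hk' using hQ
  apply Nat.card_le_card_of_injective (fun z => (f z.1) ((k z.2) x0))
  rintro ⟨y1, z1⟩ ⟨y2, z2⟩ h
  dsimp only at h
  have key : (k z2)⁻¹ * (k z1) ∈ Q := Q.mul_mem (Q.inv_mem (hk z2)) (hk z1)
  have key2 : (f y1)⁻¹ * (f y2) ∈ P := P.mul_mem (P.inv_mem (hf y1)) (hf y2)
  have h1 : ((k z2)⁻¹ * (k z1)) x0 = ((f y1)⁻¹ * (f y2)) x0 := by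
    have e1 := hcomm _ key2 _ (hk z2)
    have e2 : (k z1) x0 = ((f y1)⁻¹ * (f y2)) ((k z2) x0) := by
      rw [Perm.mul_apply, ← h, inv_app]
    have e3 : ((f y1)⁻¹ * (f y2)) ((k z2) x0) = (k z2) (((f y1)⁻¹ * (f y2)) x0) := by
      calc _ = (((f y1)⁻¹ * (f y2)) * (k z2)) x0 := rfl
        _ = ((k z2) * ((f y1)⁻¹ * (f y2))) x0 := by rw [e1]
        _ = _ := rfl
    rw [Perm.mul_apply, e2, e3, inv_app]
  have hcq : (orderOf ((k z2)⁻¹ * (k z1))).Coprime (orderOf ((f y1)⁻¹ * (f y2))) :=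
    (Nat.Coprime.coprime_dvd_left (Subgroup.orderOf_dvd_natCard _ key2)
      (Nat.Coprime.coprime_dvd_right (Subgroup.orderOf_dvd_natCard _ key) hco)).symm
  have h2 := fix_of_coprime (hcomm _ key2 _ key).symm hcq h1
  have h3 : ((f y1)⁻¹ * (f y2)) x0 = x0 := by rw [← h1, h2]
  have h4 : (k z1) x0 = (k z2) x0 := by
    rw [Perm.mul_apply, Perm.inv_eq_iff_eq] at h2
    exact h2
  have h5 : (f y2) x0 = (f y1) x0 := by
    rw [Perm.mul_apply, Perm.inv_eq_iff_eq] at h3
    exact h3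
  rw [Prod.mk.injEq]
  refine ⟨Subtype.ext ?_, Subtype.ext ?_⟩
  · rw [← hf' y1, ← hf' y2, h5]
  · rw [← hk' z1, ← hk' z2, h4]

theorem orbit_dvd [Finite X] (P : Subgroup (Perm X)) (x0 : X) :
    Nat.card (MulAction.orbit P x0) ∣ Nat.card P := by
  rw [Nat.card_congr (MulAction.orbitEquivQuotientStabilizer P x0)]
  exact Subgroup.card_quotient_dvd_card _

theorem two_le_of_faithful [Finite X] {P : Subgroup (Perm X)} {x0 : X}
    (hf : Function.Injective (MulAction.toPermHom P (MulAction.orbit P x0)))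
    (hP : Nat.card P ≠ 1) : 2 ≤ Nat.card (MulAction.orbit P x0) := by
  by_contra hlt
  have h1 : Nat.card (MulAction.orbit P x0) ≤ 1 := by omega
  have h2 : Subsingleton (MulAction.orbit P x0) := Finite.card_le_one_iff_subsingleton.mp h1
  have h3 : Subsingleton P := hf.subsingleton
  exact hP (Nat.card_eq_one_iff_unique.mpr ⟨h3, ⟨1⟩⟩)

/-- transitive nilpotent non-`p`-groups -/
theorem trans_bound [Finite X] (N : Subgroup (Perm X)) (hN : Group.IsNilpotent N)
    (htr : ∀ x y : X, ∃ g ∈ N, g x = y)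
    (hnp : ∀ p : ℕ, p.Prime → ¬ IsPGroup p N)
    (ih : ∀ (Y : Set X), Nat.card Y < Nat.card X → ∀ M : Subgroup (Perm Y),
      Group.IsNilpotent M → 2 * Nat.card M ≤ F (Nat.card Y)) (hX : Nonempty X) :
    4 * Nat.card N ≤ F (Nat.card X) := by
  obtain ⟨x0⟩ := hX
  have hN1 : Nat.card N ≠ 1 := by
    intro h
    apply hnp 2 Nat.prime_two
    exact IsPGroup.of_card (n := 0) (by rw [h, pow_zero])
  obtain ⟨p, hp, hpd⟩ := Nat.exists_prime_and_dvd hN1
  have : Fact p.Prime := ⟨hp⟩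
  obtain ⟨P, Q, hPN, hQN, hPp, hco, hpQ, hcomm, hcard, hgen⟩ := decomp N hN p
  have hP1 : Nat.card P ≠ 1 := by
    intro h
    rw [h, one_mul] at hcard
    exact hpQ (hcard ▸ hpd)
  have hQ1 : Nat.card Q ≠ 1 := by
    intro h
    rw [h, mul_one] at hcard
    apply hnp p hp
    obtain ⟨k, hk⟩ := IsPGroup.iff_card.mp hPp
    exact IsPGroup.of_card (n := k) (by rw [hcard, hk])
  have hfP := orbit_faithful hcomm hgen htr x0
  have hcomm' : ∀ a ∈ Q, ∀ b ∈ P, a * b = b * a := fun a ha b hb => (hcomm b hb a ha).symm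
  have hgen' : ∀ g ∈ N, ∃ a ∈ Q, ∃ b ∈ P, g = a * b := by
    intro g hg
    obtain ⟨a, ha, b, hb, h⟩ := hgen g hg
    exact ⟨b, hb, a, ha, h.trans (hcomm a ha b hb)⟩
  have hfQ := orbit_faithful hcomm' hgen' htr x0
  have hu := two_le_of_faithful hfP hP1
  have hv := two_le_of_faithful hfQ hQ1
  have huv := orbit_mul_le hcomm hco x0
  have hcuv : (Nat.card (MulAction.orbit P x0)).Coprime (Nat.card (MulAction.orbit Q x0)) :=
    Nat.Coprime.coprime_dvd_left (orbit_dvd P x0)
      (Nat.Coprime.coprime_dvd_right (orbit_dvd Q x0) hco)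
  have hnil : ∀ R : Subgroup (Perm X), R ≤ N → Group.IsNilpotent R := by
    intro R hR
    have := hN
    have h1 : Group.IsNilpotent (R.subgroupOf N) := inferInstance
    exact (Group.isNilpotent_congr (Subgroup.subgroupOfEquivOfLe hR)).mp h1
  have main : ∀ R : Subgroup (Perm X), R ≤ N →
      Function.Injective (MulAction.toPermHom R (MulAction.orbit R x0)) →
      Nat.card (MulAction.orbit R x0) < Nat.card X →
      2 * Nat.card R ≤ F (Nat.card (MulAction.orbit R x0)) := by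
    intro R hR hinj hlt
    have h1 := ih (MulAction.orbit R x0) hlt
      (MulAction.toPermHom R (MulAction.orbit R x0)).range (by
        have := hnil R hR
        exact Group.nilpotent_of_surjective _ (MonoidHom.rangeRestrict_surjective _))
    have h2 : Nat.card (MulAction.toPermHom R (MulAction.orbit R x0)).range = Nat.card R :=
      (Nat.card_congr (MonoidHom.ofInjective hinj).toEquiv).symm
    rwa [h2] at h1
  have h1 := main P hPN hfP (by nlinarith)
  have h2 := main Q hQN hfQ (by nlinarith)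
  have h3 := F_uv _ _ hu hv hcuv
  have h4 := F_mono huv
  rw [hcard]
  nlinarith

end CfsgLib.NSymH12
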