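import Mathlib
import Cfsg.Agent.EqBase
import Cfsg.Agent.LibNSymH12

/-! nilpotent subgroups of symmetric groups: bounds -/

set_option autoImplicit false

universe u

namespace CfsgLib.NSymBH12

open Equiv CfsgLib.NSNumH12 CfsgLib.NSymH12

variable {X : Type u}

theorem split_sub (p : X → Prop) [DecidablePred p] (N : Subgroup (Perm X))
    (hp : ∀ g ∈ N, ∀ x, p (g x) ↔ p x) (hN : Group.IsNilpotent N) :
    ∃ (A : Subgroup (Perm {x // p x})) (B : Subgroup (Perm {x // ¬ p x})),
      Group.IsNilpotent A ∧ Group.IsNilpotent B ∧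
      N ≤ (A.prod B).map (Perm.subtypeCongrHom p) := by
  have hle : N ≤ (Perm.subtypeCongrHom p).range := by
    intro g hg
    refine ⟨(g.subtypePerm (fun x => (hp g hg x)),
      g.subtypePerm (fun x => not_congr (hp g hg x))), ?_⟩
    ext x
    by_cases h : p x <;> simp [Perm.subtypeCongr.apply, h]
  have hnM : Group.IsNilpotent (N.comap (Perm.subtypeCongrHom p)) := by
    have h1 : (N.comap (Perm.subtypeCongrHom p)).map (Perm.subtypeCongrHom p) = N :=
      Subgroup.map_comap_eq_self hle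
    have h2 : Group.IsNilpotent
        ((N.comap (Perm.subtypeCongrHom p)).map (Perm.subtypeCongrHom p)) := by
      rw [h1]; exact hN
    exact (Group.isNilpotent_congr ((N.comap (Perm.subtypeCongrHom p)).equivMapOfInjective _
      (Perm.subtypeCongrHom_injective p))).mpr h2
  refine ⟨(N.comap (Perm.subtypeCongrHom p)).map (MonoidHom.fst _ _),
    (N.comap (Perm.subtypeCongrHom p)).map (MonoidHom.snd _ _), ?_, ?_, ?_⟩
  · exact Group.nilpotent_of_surjective _
      (MonoidHom.subgroupMap_surjective (MonoidHom.fst _ _) (N.comap (Perm.subtypeCongrHom p)))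
  · exact Group.nilpotent_of_surjective _
      (MonoidHom.subgroupMap_surjective (MonoidHom.snd _ _) (N.comap (Perm.subtypeCongrHom p)))
  · intro g hg
    obtain ⟨z, hz⟩ := hle hg
    refine ⟨z, ?_, hz⟩
    have hzM : z ∈ N.comap (Perm.subtypeCongrHom p) := by
      rw [Subgroup.mem_comap, hz]; exact hg
    exact Subgroup.mem_prod.mpr ⟨⟨z, hzM, rfl⟩, ⟨z, hzM, rfl⟩⟩

theorem card_prod_map (p : X → Prop) [DecidablePred p]
    (A : Subgroup (Perm {x // p x})) (B : Subgroup (Perm {x // ¬ p x})) :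
    Nat.card ((A.prod B).map (Perm.subtypeCongrHom p)) = Nat.card A * Nat.card B := by
  rw [Subgroup.card_map_of_injective (Perm.subtypeCongrHom_injective p),
    Nat.card_congr (Subgroup.prodEquiv A B).toEquiv, Nat.card_prod]

theorem card_split (p : X → Prop) [Finite X] :
    Nat.card {x // p x} + Nat.card {x // ¬ p x} = Nat.card X := by
  classical
  rw [← Nat.card_sum]
  exact Nat.card_congr (Equiv.sumCompl p)

theorem two_mul_card_le {G : Type*} [Group G] [Finite G] {H K : Subgroup G} (h : H ≤ K)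
    (hne : H ≠ K) : 2 * Nat.card H ≤ Nat.card K := by
  obtain ⟨c, hc⟩ := Subgroup.card_dvd_of_le h
  rw [hc]
  have hc0 : c ≠ 0 := by
    rintro rfl
    rw [mul_zero] at hc
    exact Nat.card_pos.ne' hc
  have hc1 : c ≠ 1 := by
    rintro rfl
    rw [mul_one] at hc
    exact hne (Subgroup.eq_of_le_of_card_ge h hc.le)
  have : 2 ≤ c := by omega
  nlinarith [Nat.zero_le (Nat.card H)]

theorem pow_le_of_dvd {p m k : ℕ} (hp : p.Prime) (hm : m ≠ 0) (h : p ^ k ∣ m) :
    p ^ k ≤ p ^ padicValNat p m := by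
  have : Fact p.Prime := ⟨hp⟩
  exact Nat.pow_le_pow_right hp.pos ((padicValNat_dvd_iff_le hm).mp h)

theorem pgroup_bound [Finite X] (N : Subgroup (Perm X)) {p : ℕ} (hp : p.Prime)
    (hN : IsPGroup p N) : Nat.card N ≤ p ^ padicValNat p (Nat.card X).factorial := by
  have : Fact p.Prime := ⟨hp⟩
  obtain ⟨k, hk⟩ := IsPGroup.iff_card.mp hN
  rw [hk]
  apply pow_le_of_dvd hp (Nat.factorial_ne_zero _)
  rw [← hk, ← Nat.card_perm]
  exact Subgroup.card_subgroup_dvd_card N

/-- the subset of an orbit -/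
theorem intrans_data [Finite X] (N : Subgroup (Perm X))
    (h : ¬ ∀ x y : X, ∃ g ∈ N, g x = y) : ∃ p : X → Prop, (∀ g ∈ N, ∀ x, p (g x) ↔ p x) ∧
      Nat.card {x // p x} ≠ 0 ∧ Nat.card {x // ¬ p x} ≠ 0 := by
  push Not at h
  obtain ⟨x, y, hxy⟩ := h
  refine ⟨fun z => ∃ g ∈ N, g x = z, ?_, ?_, ?_⟩
  · intro g hg z
    constructor
    · rintro ⟨k, hk, hkz⟩
      refine ⟨g⁻¹ * k, N.mul_mem (N.inv_mem hg) hk, ?_⟩
      rw [Perm.mul_apply, hkz, inv_app]
    · rintro ⟨k, hk, hkz⟩
      exact ⟨g * k, N.mul_mem hg hk, by rw [Perm.mul_apply, hkz]⟩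
  · have : Nonempty {z // ∃ g ∈ N, g x = z} := ⟨⟨x, 1, N.one_mem, rfl⟩⟩
    exact Nat.card_pos.ne'
  · have : Nonempty {z // ¬ ∃ g ∈ N, g x = z} := ⟨⟨y, by
      rintro ⟨g, hg, hgx⟩
      exact hxy g hg hgx⟩⟩
    exact Nat.card_pos.ne'

theorem sym_bound (n : ℕ) : ∀ (X : Type u) [Finite X], Nat.card X = n →
    ∀ N : Subgroup (Perm X), Group.IsNilpotent N → 2 * Nat.card N ≤ F n := by
  classical
  induction n using Nat.strong_induction_on with
  | _ n ih =>
    intro X _ hX N hN
    by_cases hpg : ∃ p : ℕ, p.Prime ∧ IsPGroup p N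
    · obtain ⟨p, hp, hpN⟩ := hpg
      have h1 := pgroup_bound N hp hpN
      rw [hX] at h1
      by_cases h2 : p = 2
      · subst h2
        have := s_le_F n
        change Nat.card N ≤ s n at h1
        omega
      · have h3 := val_bound p n hp h2
        have h4 := K_le n
        omega
    · push Not at hpg
      have hne : Nonempty X := by
        by_contra hemp
        rw [not_nonempty_iff] at hemp
        have h1 : Subsingleton N := inferInstance
        apply hpg 2 Nat.prime_two
        exact IsPGroup.of_card (n := 0) (by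
          rw [pow_zero]; exact Nat.card_eq_one_iff_unique.mpr ⟨h1, ⟨1⟩⟩)
      by_cases htr : ∀ x y : X, ∃ g ∈ N, g x = y
      · have h1 := trans_bound N hN htr hpg (fun Y hY M hM => ih _ (hX ▸ hY) Y rfl M hM) hne
        rw [hX] at h1
        omega
      · obtain ⟨p, hp, hpa, hpb⟩ := intrans_data N htr
        obtain ⟨A, B, hA, hB, hle⟩ := split_sub p N hp hN
        have hs := card_split p
        have h1 := ih _ (by omega) {x // p x} rfl A hA
        have h2 := ih _ (by omega) {x // ¬ p x} rfl B hB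
        have h3 : Nat.card N ≤ Nat.card A * Nat.card B := by
          rw [← card_prod_map p A B]
          exact Nat.card_le_card_of_injective _ (Subgroup.inclusion_injective hle)
        have h4 := F_add (Nat.card {x // p x}) (Nat.card {x // ¬ p x})
        rw [hs, hX] at h4
        have h5 := Nat.mul_le_mul h1 h2
        nlinarith

theorem trans_bound' [Finite X] (N : Subgroup (Perm X)) (hN : Group.IsNilpotent N)
    (htr : ∀ x y : X, ∃ g ∈ N, g x = y)
    (hnp : ∀ p : ℕ, p.Prime → ¬ IsPGroup p N) (hX : Nonempty X) :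
    4 * Nat.card N ≤ F (Nat.card X) :=
  trans_bound N hN htr hnp (fun Y _ M hM => sym_bound _ Y rfl M hM) hX

end CfsgLib.NSymBH12

namespace CfsgLib.NSymBH12

open Equiv CfsgLib.NSNumH12 CfsgLib.NSymH12

theorem card_sylow_perm (n : ℕ) (P : Sylow 2 (Perm (Fin n))) : Nat.card P = s n := by
  have : Fact (Nat.Prime 2) := ⟨Nat.prime_two⟩
  have h := P.card_eq_multiplicity
  rw [h, Nat.card_perm, Nat.card_eq_fintype_card, Fintype.card_fin]
  unfold s v
  rw [Nat.factorization_def _ Nat.prime_two]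

theorem F_of_ne {n : ℕ} (h : n % 4 ≠ 3) : F n = 2 * s n := by unfold F; rw [if_neg h]

theorem s_of_three {n : ℕ} (h : n % 4 = 3) : s n = 2 * s (n - 3) := by
  obtain ⟨k, rfl⟩ : ∃ k, n = 4 * k + 3 := ⟨n / 4, by omega⟩
  have h1 : v (4 * k + 3) = v (4 * k + 2) := by
    have := v_odd (2 * k + 1)
    rw [show 2 * (2 * k + 1) = 4 * k + 2 by ring] at this; exact this
  have h2 := v_two_mod k
  have h3 : v (4 * k + 1) = v (4 * k) := by
    have := v_odd (2 * k)
    rw [show 2 * (2 * k) = 4 * k by ring] at this; exact this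
  have h4 : 4 * k + 3 - 3 = 4 * k := by omega
  rw [h4]
  unfold s
  rw [h1, h2, h3, pow_succ, mul_comm]

theorem F_of_three {n : ℕ} (h : n % 4 = 3) : F n = 6 * s (n - 3) := by
  unfold F; rw [if_pos h, s_of_three h]; ring

end CfsgLib.NSymBH12
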