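import Mathlib
import Cfsg.Agent.EqBase
import Cfsg.Agent.LibNSymBH12

/-! nilpotent subgroups of alternating groups: bounds -/

set_option autoImplicit false

universe u

namespace CfsgLib.NAltH12

open Equiv CfsgLib.NSNumH12 CfsgLib.NSymH12 CfsgLib.NSymBH12

theorem two_group_bound {X : Type u} [Fintype X] [DecidableEq X] (N : Subgroup (Perm X))
    (hle : N ≤ alternatingGroup X) (hN : IsPGroup 2 N) : 4 * Nat.card N ≤ K (Nat.card X) := by
  rcases Nat.lt_or_ge (Nat.card X) 2 with h | h
  · have h1 : Subsingleton X := Finite.card_le_one_iff_subsingleton.mp (by omega)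
    have h2 : Nat.card N = 1 := Nat.card_eq_one_iff_unique.mpr ⟨inferInstance, ⟨1⟩⟩
    rw [h2]
    interval_cases Nat.card X <;> simp [K]
  · have hnt : Nontrivial X := by
      rw [← Finite.one_lt_card_iff_nontrivial]; omega
    have h1 : 2 * Nat.card N ∣ (Nat.card X).factorial := by
      rw [← Nat.card_perm, ← two_mul_nat_card_alternatingGroup]
      exact Nat.mul_dvd_mul_left 2 (Subgroup.card_dvd_of_le hle)
    obtain ⟨k, hk⟩ := IsPGroup.iff_card.mp hN
    rw [hk, ← pow_succ'] at h1
    have h2 := pow_le_of_dvd Nat.prime_two (Nat.factorial_ne_zero _) h1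
    change 2 ^ (k + 1) ≤ s (Nat.card X) at h2
    have h3 := s_le_F (Nat.card X)
    have h4 := F_le_K (Nat.card X)
    rw [hk]
    rw [pow_succ] at h2
    omega

theorem alt_bound (n : ℕ) : ∀ (X : Type u) [Fintype X] [DecidableEq X], Nat.card X = n →
    ∀ N : Subgroup (Perm X), N ≤ alternatingGroup X → Group.IsNilpotent N →
      4 * Nat.card N ≤ K n := by
  classical
  induction n using Nat.strong_induction_on with
  | _ n ih =>
    intro X _ _ hX N hNA hN
    by_cases hpg : ∃ p : ℕ, p.Prime ∧ IsPGroup p N
    · obtain ⟨p, hp, hpN⟩ := hpg
      by_cases h2 : p = 2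
      · subst h2
        rw [← hX]
        exact two_group_bound N hNA hpN
      · have h1 := pgroup_bound N hp hpN
        rw [hX] at h1
        have h3 := val_bound p n hp h2
        omega
    · push Not at hpg
      have hne : Nonempty X := by
        by_contra hemp
        rw [not_nonempty_iff] at hemp
        have h1 : Subsingleton N := inferInstance
        apply hpg 2 Nat.prime_two
        exact IsPGroup.of_card (n := 0) (by
          rw [pow_zero]; exact Nat.card_eq_one_iff_unique.mpr ⟨h1, ⟨1⟩⟩)
      by_cases htr : ∀ x y : X, ∃ g ∈ N, g x = y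
      · have h1 := trans_bound' N hN htr hpg hne
        rw [hX] at h1
        exact h1.trans (F_le_K n)
      · obtain ⟨p, hp, hpa, hpb⟩ := intrans_data N htr
        obtain ⟨A, B, hA, hB, hle⟩ := split_sub p N hp hN
        have hs := card_split p
        by_cases hW : (A.prod B).map (Perm.subtypeCongrHom p) ≤ alternatingGroup X
        · have hAA : A ≤ alternatingGroup {x // p x} := by
            intro a ha
            have h1 : Perm.subtypeCongr a 1 ∈ alternatingGroup X :=
              hW ⟨(a, 1), Subgroup.mem_prod.mpr ⟨ha, B.one_mem⟩, rfl⟩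
            rw [Equiv.Perm.mem_alternatingGroup, Perm.sign_subtypeCongr, Perm.sign_one,
              mul_one] at h1
            exact Equiv.Perm.mem_alternatingGroup.mpr h1
          have hBB : B ≤ alternatingGroup {x // ¬ p x} := by
            intro b hb
            have h1 : Perm.subtypeCongr 1 b ∈ alternatingGroup X :=
              hW ⟨(1, b), Subgroup.mem_prod.mpr ⟨A.one_mem, hb⟩, rfl⟩
            rw [Equiv.Perm.mem_alternatingGroup, Perm.sign_subtypeCongr, Perm.sign_one,
              one_mul] at h1
            exact Equiv.Perm.mem_alternatingGroup.mpr h1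
          have h1 := ih _ (by omega) {x // p x} rfl A hAA hA
          have h2 := ih _ (by omega) {x // ¬ p x} rfl B hBB hB
          have h3 : Nat.card N ≤ Nat.card A * Nat.card B := by
            rw [← card_prod_map p A B]
            exact Nat.card_le_card_of_injective _ (Subgroup.inclusion_injective hle)
          have h4 := K_add (Nat.card {x // p x}) (Nat.card {x // ¬ p x}) hpa hpb
          rw [hs, hX] at h4
          have h5 := Nat.mul_le_mul h1 h2
          nlinarith
        · have hne' : N ≠ (A.prod B).map (Perm.subtypeCongrHom p) := by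
            rintro rfl
            exact hW hNA
          have h3 := two_mul_card_le hle hne'
          rw [card_prod_map p A B] at h3
          have h1 := sym_bound _ {x // p x} rfl A hA
          have h2 := sym_bound _ {x // ¬ p x} rfl B hB
          have h4 := F_add (Nat.card {x // p x}) (Nat.card {x // ¬ p x})
          rw [hs, hX] at h4
          have h5 := Nat.mul_le_mul h1 h2
          have h6 := F_le_K n
          nlinarith

theorem card_sylow_alt (n : ℕ) (hn : 2 ≤ n) (P : Sylow 2 (alternatingGroup (Fin n))) :
    2 * Nat.card P = s n := by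
  have : Fact (Nat.Prime 2) := ⟨Nat.prime_two⟩
  have hnt : Nontrivial (Fin n) := Fin.nontrivial_iff_two_le.mpr hn
  have h := P.card_eq_multiplicity
  have h1 : 2 * Nat.card (alternatingGroup (Fin n)) = n.factorial := by
    rw [two_mul_nat_card_alternatingGroup, Nat.card_perm, Nat.card_eq_fintype_card,
      Fintype.card_fin]
  have h2 : v n = (Nat.card (alternatingGroup (Fin n))).factorization 2 + 1 := by
    unfold v
    rw [← h1, padicValNat.mul (by norm_num) Nat.card_pos.ne', padicValNat_self,
      Nat.factorization_def _ Nat.prime_two]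
    ring
  rw [h]
  unfold s
  rw [h2, pow_succ]
  ring

/-- bound for subgroups of the alternating group given as type -/
theorem alt_bound_sub (n : ℕ) (N : Subgroup (alternatingGroup (Fin n)))
    (hN : Group.IsNilpotent N) : 4 * Nat.card N ≤ K n := by
  have h1 : Nat.card (N.map (alternatingGroup (Fin n)).subtype) = Nat.card N :=
    Subgroup.card_map_of_injective (Subgroup.subtype_injective _)
  rw [← h1]
  apply alt_bound n (Fin n) (by rw [Nat.card_eq_fintype_card, Fintype.card_fin]) _
    (Subgroup.map_subtype_le _)
  exact (Group.isNilpotent_congr (N.equivMapOfInjective _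
    (Subgroup.subtype_injective _))).mp hN

end CfsgLib.NAltH12
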