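import Mathlib
import Cfsg.Agent.EqBase
import Cfsg.Agent.LibNSymBH12
import Cfsg.Agent.LibNAltH12

/-! nilpotent subgroups of symmetric groups: uniqueness for degree 3 mod 4 -/

set_option autoImplicit false

universe u

namespace CfsgLib.NUniqH12

open Equiv CfsgLib.NSNumH12 CfsgLib.NSymH12 CfsgLib.NSymBH12

theorem v_strict (n r : ℕ) (hn : n % 4 = 3) (hr : 2 ≤ r) (h3 : 3 * r ≤ n) :
    v (n - 3 * r) + v r < v (n - 3) := by
  have h1 := v_add (n - 3 * r) r
  have h2 : n - 3 * r + r = n - 2 * r := by omega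
  rw [h2] at h1
  have h4 := v_mono (show n - 2 * r ≤ n - 4 by omega)
  obtain ⟨k, hk⟩ : ∃ k, n = 4 * k + 7 := ⟨(n - 7) / 4, by omega⟩
  have h5 := v_four k
  have h6 : n - 4 = 4 * k + 3 := by omega
  have h7 : n - 3 = 4 * k + 4 := by omega
  rw [h6] at h4
  rw [h7]
  omega

section
variable {X : Type u} [Fintype X] [DecidableEq X]

theorem three_of (t : Perm X) (ht : orderOf t = 3) (n : ℕ) (hX : Fintype.card X = n)
    (hn : n % 4 = 3) (hd : 2 ^ v (n - 3) ∣ Nat.card (Subgroup.centralizer {t})) :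
    t.IsThreeCycle := by
  have : Fact (Nat.Prime 2) := ⟨Nat.prime_two⟩
  obtain ⟨m, hm⟩ := Perm.cycleType_prime_order (σ := t) (ht ▸ Nat.prime_three)
  rw [ht] at hm
  have hsum : t.cycleType.sum = 3 * (m + 1) := by
    rw [hm, Multiset.sum_replicate, smul_eq_mul, mul_comm]
  have hle : 3 * (m + 1) ≤ n := by rw [← hsum, ← hX]; exact t.sum_cycleType_le
  have hprod : t.cycleType.prod = 3 ^ (m + 1) := by rw [hm, Multiset.prod_replicate]
  have hfin : t.cycleType.toFinset = {3} := by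
    rw [hm]; ext x
    simp only [Multiset.mem_toFinset, Multiset.mem_replicate, Finset.mem_singleton]
    exact ⟨fun h => h.2, fun h => ⟨by omega, h⟩⟩
  have hcnt : t.cycleType.count 3 = m + 1 := by rw [hm, Multiset.count_replicate_self]
  rw [Perm.nat_card_centralizer, hsum, hprod, hfin, Finset.prod_singleton, hcnt, hX] at hd
  have hne : (n - 3 * (m + 1)).factorial * 3 ^ (m + 1) * (m + 1).factorial ≠ 0 := by positivity
  have h1 := (padicValNat_dvd_iff_le hne).mp hd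
  rw [padicValNat.mul (by positivity) (by positivity), padicValNat.mul (by positivity)
    (by positivity)] at h1
  have h2 : padicValNat 2 (3 ^ (m + 1)) = 0 := by
    apply padicValNat.eq_zero_of_not_dvd
    intro h
    have := Nat.prime_two.dvd_of_dvd_pow h
    omega
  rw [h2, add_zero] at h1
  change v (n - 3) ≤ v (n - 3 * (m + 1)) + v (m + 1) at h1
  by_cases hr : 2 ≤ m + 1
  · have := v_strict n (m + 1) hn hr hle
    omega
  · have hm0 : m = 0 := by omega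
    subst hm0
    unfold Perm.IsThreeCycle
    rw [hm]
    rfl

theorem fixes (t : Perm X) (h3 : t.IsThreeCycle) (Q : Subgroup (Perm X)) (hQ : IsPGroup 2 Q)
    (hc : ∀ q ∈ Q, t * q = q * t) : ∀ q ∈ Q, ∀ x, x ∈ t.support → q x = x := by
  intro q hq x hx
  have hqx : t (q x) ≠ q x := by
    have h1 : t (q x) = q (t x) := by
      have := congrArg (fun f : Perm X => f x) (hc q hq)
      exact this
    rw [h1]
    intro h
    exact (Perm.mem_support.mp hx) (q.injective h)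
  obtain ⟨i, hi⟩ := h3.isCycle.sameCycle (Perm.mem_support.mp hx) hqx
  have hcomm : q * t ^ i = t ^ i * q := (Commute.zpow_right (show Commute q t from (hc q hq).symm) i)
  apply fix_of_coprime hcomm _ hi.symm
  obtain ⟨k, hk⟩ := IsPGroup.iff_orderOf.mp hQ ⟨q, hq⟩
  rw [Subgroup.orderOf_mk] at hk
  rw [hk]
  apply Nat.Coprime.pow_left
  have h4 : orderOf (t ^ i) ∣ 3 := by
    rw [← h3.orderOf]
    exact orderOf_dvd_of_mem_zpowers (Subgroup.zpow_mem_zpowers t i)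
  exact Nat.Coprime.coprime_dvd_right h4 (by norm_num)

/-- pointwise stabiliser of the support -/
def W (t : Perm X) : Subgroup (Perm X) :=
  (Perm.ofSubtype : Perm {x // x ∉ t.support} →* Perm X).range

theorem mem_W (t g : Perm X) : g ∈ W t ↔ ∀ x ∈ t.support, g x = x := by
  unfold W
  rw [Perm.mem_range_ofSubtype_iff]
  constructor
  · intro h x hx
    by_contra hne
    exact h (Finset.mem_coe.mpr (Perm.mem_support.mpr hne)) hx
  · intro h x hx hxt
    exact (Perm.mem_support.mp (Finset.mem_coe.mp hx)) (h x hxt)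

theorem W_comm {t w : Perm X} (hw : w ∈ W t) : t * w = w * t := by
  apply Perm.Disjoint.commute
  intro x
  by_cases hx : x ∈ t.support
  · exact Or.inr ((mem_W t w).mp hw x hx)
  · exact Or.inl (Perm.notMem_support.mp hx)

theorem card_compl {t : Perm X} (h3 : t.IsThreeCycle) :
    Nat.card {x // x ∉ t.support} = Nat.card X - 3 := by
  rw [Nat.card_eq_fintype_card, Fintype.card_subtype_compl, Nat.card_eq_fintype_card]
  congr 1
  rw [Fintype.card_coe, h3.card_support]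

theorem card_W {t : Perm X} (h3 : t.IsThreeCycle) :
    Nat.card (W t) = (Nat.card X - 3).factorial := by
  unfold W
  rw [← Nat.card_congr (MonoidHom.ofInjective Perm.ofSubtype_injective).toEquiv, Nat.card_perm,
    card_compl h3]

theorem card_W_alt {t : Perm X} (h3 : t.IsThreeCycle) (h5 : 5 ≤ Nat.card X) :
    2 * Nat.card (W t ⊓ alternatingGroup X : Subgroup (Perm X)) = (Nat.card X - 3).factorial := by
  have hnt : Nontrivial {x // x ∉ t.support} := by
    rw [← Finite.one_lt_card_iff_nontrivial, card_compl h3]; omega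
  have h1 : (W t ⊓ alternatingGroup X : Subgroup (Perm X)) =
      (alternatingGroup {x // x ∉ t.support}).map Perm.ofSubtype := by
    ext g
    constructor
    · rintro ⟨⟨k, rfl⟩, hg⟩
      refine ⟨k, ?_, rfl⟩
      have hg' : Perm.ofSubtype k ∈ alternatingGroup X := hg
      rw [Equiv.Perm.mem_alternatingGroup, Perm.sign_ofSubtype] at hg'
      exact Equiv.Perm.mem_alternatingGroup.mpr hg'
    · rintro ⟨k, hk, rfl⟩
      refine ⟨⟨k, rfl⟩, ?_⟩
      change Perm.ofSubtype k ∈ alternatingGroup X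
      rw [Equiv.Perm.mem_alternatingGroup, Perm.sign_ofSubtype]
      exact Equiv.Perm.mem_alternatingGroup.mp hk
  rw [h1, Subgroup.card_map_of_injective Perm.ofSubtype_injective,
    two_mul_nat_card_alternatingGroup, Nat.card_perm, card_compl h3]
end

theorem conj_in {G : Type*} [Group G] [Finite G] {p : ℕ} [Fact p.Prime] (H Q₁ Q₂ : Subgroup G)
    (h1 : Q₁ ≤ H) (h2 : Q₂ ≤ H) (hc1 : Nat.card Q₁ = p ^ (Nat.card H).factorization p)
    (hc2 : Nat.card Q₂ = p ^ (Nat.card H).factorization p) :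
    ∃ h ∈ H, Q₁.map (MulAut.conj h).toMonoidHom = Q₂ := by
  have e1 : Nat.card (Q₁.subgroupOf H) = Nat.card Q₁ :=
    Nat.card_congr (Subgroup.subgroupOfEquivOfLe h1).toEquiv
  have e2 : Nat.card (Q₂.subgroupOf H) = Nat.card Q₂ :=
    Nat.card_congr (Subgroup.subgroupOfEquivOfLe h2).toEquiv
  let S₁ : Sylow p H := Sylow.ofCard (Q₁.subgroupOf H) (e1.trans hc1)
  let S₂ : Sylow p H := Sylow.ofCard (Q₂.subgroupOf H) (e2.trans hc2)
  obtain ⟨h, hh⟩ := MulAction.exists_smul_eq H S₁ S₂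
  refine ⟨h, h.2, ?_⟩
  apply Subgroup.eq_of_le_of_card_ge
  · rintro _ ⟨q, hq, rfl⟩
    have h3 : (⟨q, h1 hq⟩ : H) ∈ S₁ := Subgroup.mem_subgroupOf.mpr hq
    have h4 : h * ⟨q, h1 hq⟩ * h⁻¹ ∈ S₂ := by
      rw [← hh]
      change _ ∈ ((h • S₁ : Sylow p H) : Subgroup H)
      rw [Sylow.coe_subgroup_smul]
      exact Subgroup.smul_mem_pointwise_smul _ (MulAut.conj h) _ h3
    exact Subgroup.mem_subgroupOf.mp h4
  · rw [Subgroup.card_map_of_injective (MulAut.conj (h : G)).injective, hc1, hc2]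

theorem structure_thm {G : Type*} [Group G] [Finite G] (N : Subgroup G)
    (hN : Group.IsNilpotent N) (k : ℕ) (hc : Nat.card N = 3 * 2 ^ k) :
    ∃ (t : G) (Q : Subgroup G), orderOf t = 3 ∧ t ∈ N ∧ Q ≤ N ∧ Nat.card Q = 2 ^ k ∧
      (∀ q ∈ Q, t * q = q * t) ∧ N = Subgroup.zpowers t ⊔ Q := by
  have : Fact (Nat.Prime 3) := ⟨Nat.prime_three⟩
  obtain ⟨P, Q, hPN, hQN, hPp, hco, hpQ, hcomm, hcard, hgen⟩ := decomp N hN 3
  obtain ⟨j, hj⟩ := IsPGroup.iff_card.mp hPp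
  rw [hc, hj] at hcard
  have h1 : (3 ^ j).Coprime (2 ^ k) := Nat.Coprime.pow _ _ (by norm_num)
  have h2 : 3 ^ j ∣ 3 * 2 ^ k := ⟨_, hcard⟩
  have h3 : 3 ^ j ∣ 3 := h1.dvd_of_dvd_mul_right h2
  have hj1 : j = 1 := by
    rcases Nat.lt_or_ge j 1 with h | h
    · have : j = 0 := by omega
      subst this
      rw [pow_zero, one_mul] at hcard
      exact absurd ⟨_, hcard.symm⟩ hpQ
    · have := Nat.le_of_dvd (by norm_num) h3
      by_contra hne
      have h5 : 3 ^ 2 ≤ 3 ^ j := Nat.pow_le_pow_right (by norm_num) (by omega)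
      omega
  subst hj1
  rw [pow_one] at hcard hj
  have hQc : Nat.card Q = 2 ^ k := by omega
  have hcyc : IsCyclic P := isCyclic_of_prime_card hj
  obtain ⟨t, ht⟩ := hcyc.exists_generator
  have ht' : P = Subgroup.zpowers (t : G) := by
    apply le_antisymm
    · intro x hx
      obtain ⟨i, hi⟩ := Subgroup.mem_zpowers_iff.mp (ht ⟨x, hx⟩)
      exact ⟨i, congrArg Subtype.val hi⟩
    · rw [Subgroup.zpowers_le]; exact t.2
  refine ⟨t, Q, ?_, hPN t.2, hQN, hQc, fun q hq => hcomm t t.2 q hq, ?_⟩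
  · rw [← Nat.card_zpowers, ← ht', hj]
  · rw [← ht']
    apply le_antisymm
    · intro g hg
      obtain ⟨a, ha, b, hb, rfl⟩ := hgen g hg
      exact Subgroup.mul_mem_sup ha hb
    · exact sup_le hPN hQN

variable {X : Type u} [Fintype X] [DecidableEq X]

theorem uniq (Gs : Subgroup (Perm X)) (k : ℕ)
    (hcyc : ∀ t ∈ Gs, orderOf t = 3 → ∀ Q : Subgroup (Perm X), Q ≤ Gs → Nat.card Q = 2 ^ k →
      (∀ q ∈ Q, t * q = q * t) → t.IsThreeCycle)
    (hconj : ∀ t₁ ∈ Gs, ∀ t₂ ∈ Gs, t₁.IsThreeCycle → t₂.IsThreeCycle →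
      ∃ g ∈ Gs, g * t₁ * g⁻¹ = t₂)
    (hW : ∀ t ∈ Gs, t.IsThreeCycle →
      2 ^ ((Nat.card (W t ⊓ Gs : Subgroup (Perm X))).factorization 2) = 2 ^ k)
    (N₁ N₂ : Subgroup (Perm X)) (h1 : N₁ ≤ Gs) (h2 : N₂ ≤ Gs) (hn1 : Group.IsNilpotent N₁)
    (hn2 : Group.IsNilpotent N₂) (hc1 : Nat.card N₁ = 3 * 2 ^ k)
    (hc2 : Nat.card N₂ = 3 * 2 ^ k) :
    ∃ g ∈ Gs, N₂ = N₁.map (MulAut.conj g).toMonoidHom := by
  have : Fact (Nat.Prime 2) := ⟨Nat.prime_two⟩
  obtain ⟨t₁, Q₁, ho1, ht1, hQ1, hq1, hcm1, he1⟩ := structure_thm N₁ hn1 k hc1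
  obtain ⟨t₂, Q₂, ho2, ht2, hQ2, hq2, hcm2, he2⟩ := structure_thm N₂ hn2 k hc2
  have hT1 := hcyc t₁ (h1 ht1) ho1 Q₁ (hQ1.trans h1) hq1 hcm1
  have hT2 := hcyc t₂ (h2 ht2) ho2 Q₂ (hQ2.trans h2) hq2 hcm2
  obtain ⟨g, hg, hgt⟩ := hconj t₁ (h1 ht1) t₂ (h2 ht2) hT1 hT2
  have hmapc : Nat.card (Q₁.map (MulAut.conj g).toMonoidHom) = Nat.card Q₁ :=
    Subgroup.card_map_of_injective (MulAut.conj g).injective
  have hmapG : Q₁.map (MulAut.conj g).toMonoidHom ≤ Gs := by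
    rintro _ ⟨q, hq, rfl⟩
    exact Gs.mul_mem (Gs.mul_mem hg (h1 (hQ1 hq))) (Gs.inv_mem hg)
  have hmapcomm : ∀ q ∈ Q₁.map (MulAut.conj g).toMonoidHom, t₂ * q = q * t₂ := by
    rintro _ ⟨q, hq, rfl⟩
    change t₂ * (g * q * g⁻¹) = (g * q * g⁻¹) * t₂
    rw [← hgt]
    have := hcm1 q hq
    calc g * t₁ * g⁻¹ * (g * q * g⁻¹) = g * (t₁ * q) * g⁻¹ := by group
      _ = g * (q * t₁) * g⁻¹ := by rw [this]
      _ = _ := by group
  have hW1 : Q₁.map (MulAut.conj g).toMonoidHom ≤ W t₂ ⊓ Gs := by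
    refine le_inf ?_ hmapG
    intro q hq
    rw [mem_W]
    exact fixes t₂ hT2 _ (IsPGroup.of_card (n := k) (hmapc.trans hq1)) hmapcomm q hq
  have hW2 : Q₂ ≤ W t₂ ⊓ Gs := by
    refine le_inf ?_ (hQ2.trans h2)
    intro q hq
    rw [mem_W]
    exact fixes t₂ hT2 _ (IsPGroup.of_card (n := k) hq2) hcm2 q hq
  obtain ⟨w, hw, hwQ⟩ := conj_in (p := 2) (W t₂ ⊓ Gs) _ _ hW1 hW2
    (by rw [hmapc, hq1, hW t₂ (h2 ht2) hT2]) (by rw [hq2, hW t₂ (h2 ht2) hT2])
  refine ⟨w * g, Gs.mul_mem hw.2 hg, ?_⟩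
  rw [he1, he2, Subgroup.map_sup, ← hwQ, Subgroup.map_map]
  congr 1
  · rw [MonoidHom.map_zpowers]
    congr 1
    change t₂ = w * g * t₁ * (w * g)⁻¹
    have h5 := W_comm hw.1
    calc t₂ = w * t₂ * w⁻¹ := by rw [← h5]; group
      _ = w * (g * t₁ * g⁻¹) * w⁻¹ := by rw [hgt]
      _ = _ := by group

end CfsgLib.NUniqH12
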