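import Mathlib
import Cfsg.Agent.EqBase
import Cfsg.Agent.LibNSymBH12
import Cfsg.Agent.LibNAltH12
import Cfsg.Agent.LibNUniqH12

/-! nilpotent subgroups of symmetric groups: existence for degree 3 mod 4 -/

set_option autoImplicit false

universe u

namespace CfsgLib.NExH12

open Equiv CfsgLib.NSNumH12 CfsgLib.NSymH12 CfsgLib.NSymBH12 CfsgLib.NAltH12 CfsgLib.NUniqH12

def eqv (n : ℕ) (h : 3 ≤ n) : Fin (n - 3) ⊕ Fin 3 ≃ Fin n :=
  finSumFinEquiv.trans (finCongr (by omega))

def Phi (n : ℕ) (h : 3 ≤ n) : Perm (Fin (n - 3)) × Perm (Fin 3) →* Perm (Fin n) :=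
  (Equiv.permCongrHom (eqv n h)).toMonoidHom.comp (Perm.sumCongrHom _ _)

theorem Phi_inj (n : ℕ) (h : 3 ≤ n) : Function.Injective (Phi n h) := by
  unfold Phi
  rw [MonoidHom.coe_comp]
  exact (MulEquiv.injective _).comp Perm.sumCongrHom_injective

theorem sign_Phi (n : ℕ) (h : 3 ≤ n) (a : Perm (Fin (n - 3))) (b : Perm (Fin 3)) :
    Perm.sign (Phi n h (a, b)) = Perm.sign a * Perm.sign b := by
  change Perm.sign ((eqv n h).permCongr (Perm.sumCongr a b)) = _
  rw [Perm.sign_permCongr, Perm.sign_sumCongr]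

theorem card_alt3 : Nat.card (alternatingGroup (Fin 3)) = 3 := by
  have h := two_mul_nat_card_alternatingGroup (α := Fin 3)
  rw [Nat.card_perm] at h
  have h2 : Nat.card (Fin 3) = 3 := by simp
  rw [h2] at h
  have h3 : Nat.factorial 3 = 6 := rfl
  omega

theorem iso3 : Nonempty (alternatingGroup (Fin 3) ≃* Multiplicative (ZMod 3)) := by
  have : Fact (Nat.Prime 3) := ⟨Nat.prime_three⟩
  exact ⟨mulEquivOfPrimeCardEq (p := 3) card_alt3 (by simp)⟩

theorem exM (n : ℕ) (h : 3 ≤ n) (T : Subgroup (Perm (Fin (n - 3)))) (hT : IsPGroup 2 T) :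
    Group.IsNilpotent ((T.prod (alternatingGroup (Fin 3))).map (Phi n h)) ∧
    Nat.card ((T.prod (alternatingGroup (Fin 3))).map (Phi n h)) = 3 * Nat.card T ∧
    Nonempty (((T.prod (alternatingGroup (Fin 3))).map (Phi n h)) ≃*
      (T × Multiplicative (ZMod 3))) := by
  have : Fact (Nat.Prime 2) := ⟨Nat.prime_two⟩
  obtain ⟨i⟩ := iso3
  have e : ((T.prod (alternatingGroup (Fin 3))).map (Phi n h)) ≃*
      (T × Multiplicative (ZMod 3)) :=
    (((T.prod (alternatingGroup (Fin 3))).equivMapOfInjective _ (Phi_inj n h)).symm.trans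
      (Subgroup.prodEquiv _ _)).trans (MulEquiv.prodCongr (MulEquiv.refl _) i)
  refine ⟨?_, ?_, ⟨e⟩⟩
  · have h1 : Group.IsNilpotent T := hT.isNilpotent
    have h2 : Group.IsNilpotent (T × Multiplicative (ZMod 3)) := inferInstance
    exact (Group.isNilpotent_congr e).mpr h2
  · rw [Nat.card_congr e.toEquiv, Nat.card_prod, mul_comm]
    congr 1
    simp

theorem exM_alt (n : ℕ) (h : 3 ≤ n) (T : Subgroup (Perm (Fin (n - 3))))
    (hT : T ≤ alternatingGroup (Fin (n - 3))) :
    (T.prod (alternatingGroup (Fin 3))).map (Phi n h) ≤ alternatingGroup (Fin n) := by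
  rintro _ ⟨⟨a, b⟩, hab, rfl⟩
  obtain ⟨ha, hb⟩ := Subgroup.mem_prod.mp hab
  rw [Equiv.Perm.mem_alternatingGroup, sign_Phi,
    Equiv.Perm.mem_alternatingGroup.mp (hT ha), Equiv.Perm.mem_alternatingGroup.mp hb, mul_one]

theorem card_fin_nat (n : ℕ) : Nat.card (Fin n) = n := by simp

theorem uniq_sym (n : ℕ) (hn : n % 4 = 3) (N₁ N₂ : Subgroup (Perm (Fin n)))
    (hn1 : Group.IsNilpotent N₁) (hn2 : Group.IsNilpotent N₂)
    (hc1 : Nat.card N₁ = 3 * s (n - 3)) (hc2 : Nat.card N₂ = 3 * s (n - 3)) :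
    ∃ g : Perm (Fin n), N₂ = N₁.map (MulAut.conj g).toMonoidHom := by
  obtain ⟨g, -, hg⟩ := uniq (⊤ : Subgroup (Perm (Fin n))) (v (n - 3)) (by
      intro t _ ht Q _ hQ hc
      apply three_of t ht n (Fintype.card_fin n) hn
      rw [← hQ]
      apply Subgroup.card_dvd_of_le
      intro q hq
      rw [Subgroup.mem_centralizer_singleton_iff]
      exact (hc q hq).symm) (by
      intro t₁ _ t₂ _ h1 h2
      have h3 : IsConj t₁ t₂ := by
        rw [Perm.isConj_iff_cycleType_eq]
        exact (show t₁.cycleType = {3} from h1).trans (show t₂.cycleType = {3} from h2).symm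
      obtain ⟨c, hc⟩ := isConj_iff.mp h3
      exact ⟨c, Subgroup.mem_top _, hc⟩) (by
      intro t _ h3
      rw [inf_top_eq, card_W h3, card_fin_nat, Nat.factorization_def _ Nat.prime_two]
      rfl) N₁ N₂ le_top le_top hn1 hn2 hc1 hc2
  exact ⟨g, hg⟩

theorem two_dvd_cent (n : ℕ) (h7 : 7 ≤ n) (t : Perm (Fin n)) (ht : orderOf t = 3) :
    2 * Nat.card (Subgroup.centralizer {t} ⊓ alternatingGroup (Fin n) : Subgroup (Perm (Fin n)))
      ∣ Nat.card (Subgroup.centralizer {t}) := by
  have hnt : Nontrivial (Fin n) := Fin.nontrivial_iff_two_le.mpr (by omega)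
  have h1 : ¬ Subgroup.centralizer {t} ≤ alternatingGroup (Fin n) := by
    rw [Equiv.Perm.centralizer_le_alternating_iff]
    rintro ⟨-, h2, h3⟩
    obtain ⟨m, hm⟩ := Perm.cycleType_prime_order (σ := t) (ht ▸ Nat.prime_three)
    rw [ht] at hm
    have h4 := h3 3
    rw [hm, Multiset.count_replicate_self] at h4
    rw [hm, Multiset.sum_replicate, smul_eq_mul, Fintype.card_fin] at h2
    omega
  have h2 : (alternatingGroup (Fin n)).relIndex (Subgroup.centralizer {t}) ∣ 2 := by
    rw [← alternatingGroup.index_eq_two (α := Fin n)]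
    exact Subgroup.relIndex_dvd_index_of_normal _ _
  have h3 : (alternatingGroup (Fin n)).relIndex (Subgroup.centralizer {t}) ≠ 1 := by
    intro h
    exact h1 (Subgroup.relIndex_eq_one.mp h)
  have h4 : (alternatingGroup (Fin n)).relIndex (Subgroup.centralizer {t}) = 2 := by
    rcases (Nat.dvd_prime Nat.prime_two).mp h2 with h | h
    · exact absurd h h3
    · exact h
  have h5 := ((alternatingGroup (Fin n)).subgroupOf (Subgroup.centralizer {t})).index_mul_card
  have h6 : Nat.card ((alternatingGroup (Fin n)).subgroupOf (Subgroup.centralizer {t})) =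
      Nat.card (alternatingGroup (Fin n) ⊓ Subgroup.centralizer {t} : Subgroup (Perm (Fin n))) := by
    rw [← Subgroup.inf_subgroupOf_right]
    exact Nat.card_congr (Subgroup.subgroupOfEquivOfLe inf_le_right).toEquiv
  rw [h6] at h5
  have h7 : ((alternatingGroup (Fin n)).subgroupOf (Subgroup.centralizer {t})).index = 2 := h4
  rw [h7] at h5
  rw [inf_comm, h5]

theorem uniq_alt (n : ℕ) (hn : n % 4 = 3) (h7 : 7 ≤ n) (k : ℕ) (hk : v (n - 3) = k + 1)
    (N₁ N₂ : Subgroup (alternatingGroup (Fin n)))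
    (hn1 : Group.IsNilpotent N₁) (hn2 : Group.IsNilpotent N₂)
    (hc1 : Nat.card N₁ = 3 * 2 ^ k) (hc2 : Nat.card N₂ = 3 * 2 ^ k) :
    ∃ g : alternatingGroup (Fin n), N₂ = N₁.map (MulAut.conj g).toMonoidHom := by
  have hnt : Nontrivial (Fin n) := Fin.nontrivial_iff_two_le.mpr (by omega)
  have hm : ∀ N : Subgroup (alternatingGroup (Fin n)), Group.IsNilpotent N →
      Group.IsNilpotent (N.map (alternatingGroup (Fin n)).subtype) := fun N hN =>
    (Group.isNilpotent_congr (N.equivMapOfInjective _ (Subgroup.subtype_injective _))).mp hN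
  have hc : ∀ N : Subgroup (alternatingGroup (Fin n)),
      Nat.card (N.map (alternatingGroup (Fin n)).subtype) = Nat.card N := fun N =>
    Subgroup.card_map_of_injective (Subgroup.subtype_injective _)
  obtain ⟨g, hgA, hg⟩ := uniq (alternatingGroup (Fin n)) k (by
      intro t _ ht Q hQA hQ hc
      apply three_of t ht n (Fintype.card_fin n) hn
      rw [hk, pow_succ, mul_comm, ← hQ]
      refine (Nat.mul_dvd_mul_left 2 (Subgroup.card_dvd_of_le (le_inf ?_ hQA))).trans
        (two_dvd_cent n h7 t ht)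
      intro q hq
      rw [Subgroup.mem_centralizer_singleton_iff]
      exact (hc q hq).symm) (by
      intro t₁ h1 t₂ h2 h3 h4
      obtain ⟨c, hc⟩ := isConj_iff.mp
        (alternatingGroup.isThreeCycle_isConj (by rw [card_fin_nat]; omega)
          (σ := ⟨t₁, h1⟩) (τ := ⟨t₂, h2⟩) h3 h4)
      exact ⟨c, c.2, congrArg Subtype.val hc⟩) (by
      intro t _ h3
      have h4 := card_W_alt h3 (by rw [card_fin_nat]; omega)
      rw [card_fin_nat] at h4
      have h5 : v (n - 3) = (Nat.card (W t ⊓ alternatingGroup (Fin n) :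
          Subgroup (Perm (Fin n)))).factorization 2 + 1 := by
        have : Fact (Nat.Prime 2) := ⟨Nat.prime_two⟩
        unfold v
        rw [← h4, padicValNat.mul (by norm_num) Nat.card_pos.ne', padicValNat_self,
          Nat.factorization_def _ Nat.prime_two]
        ring
      congr 1
      omega) (N₁.map (alternatingGroup (Fin n)).subtype) (N₂.map (alternatingGroup (Fin n)).subtype)
      (Subgroup.map_subtype_le _) (Subgroup.map_subtype_le _) (hm _ hn1) (hm _ hn2)
      (by rw [hc, hc1]) (by rw [hc, hc2])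
  refine ⟨⟨g, hgA⟩, ?_⟩
  apply Subgroup.map_injective (Subgroup.subtype_injective (alternatingGroup (Fin n)))
  rw [hg, Subgroup.map_map, Subgroup.map_map]
  congr 1

end CfsgLib.NExH12
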