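import Mathlib
import Cfsg.Agent.LibPSolv17
import Cfsg.Agent.LibPSolv19
import Cfsg.Agent.LibCoprime
import Cfsg.Agent.LibCores
import Cfsg.Agent.LibLE4
import Cfsg.Agent.LibSolvBasic

/-! A Sylow `p`-subgroup normalizing a Sylow `q`-subgroup (seat helper20). -/

set_option autoImplicit false
set_option linter.all false

namespace CfsgLib.NormSyl20

open Cfsg
open scoped Pointwise

universe u

section
variable {G : Type u} [Group G] [Finite G] {p q : ℕ} [hp : Fact p.Prime] [hq : Fact q.Prime]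

/-- all Sylow `q`-subgroups inside `O_{p'}(G)` -/
theorem exists_of_not_dvd (hpq : p ≠ q) (K : Subgroup G) [hK : K.Normal] (hcop : (Nat.card K).Coprime p) (hidx : ¬ q ∣ K.index) (P : Sylow p G) :
    ∃ Q : Sylow q G, (P : Subgroup G) ≤ Subgroup.normalizer ((Q : Subgroup G) : Set G) := by
  have hPK : (P : Subgroup G) ≤ Subgroup.normalizer (K : Set G) := by
    rw [Subgroup.normalizer_eq_top]; exact le_top
  have hc : (Nat.card (P : Subgroup G)).Coprime (Nat.card K) := by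
    obtain ⟨a, ha⟩ := IsPGroup.iff_card.mp P.isPGroup'
    rw [ha]
    exact (hcop.symm).pow_left a
  haveI : Group.IsNilpotent (P : Subgroup G) := P.isPGroup'.isNilpotent
  obtain ⟨Q₀, hQ₀⟩ := CfsgLib.Coprime.exists_invariant_sylow hPK hc (Or.inl inferInstance) q
  have h1 : IsPGroup q ((Q₀ : Subgroup K).map K.subtype) := Q₀.isPGroup'.map _
  have h2 : ¬ q ∣ ((Q₀ : Subgroup K).map K.subtype).index := by
    rw [Subgroup.index_map_subtype]
    intro h
    rcases (Nat.Prime.dvd_mul hq.out).mp h with h3 | h3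
    · exact Q₀.not_dvd_index h3
    · exact hidx h3
  exact ⟨h1.toSylow h2, hQ₀⟩

/-- images of Sylow subgroups -/
theorem le_of_map_trivial (K : Subgroup G) [hK : K.Normal] (Q : Sylow q G) (h : ∀ y ∈ (Q : Subgroup G), y ∈ K) : ¬ q ∣ K.index := by
  intro h1
  have h2 : (Q : Subgroup G) ≤ K := h
  exact Q.not_dvd_index (h1.trans (Subgroup.index_dvd_of_le h2))

/-- elements of `p`-power and `q`-power order -/
theorem eq_one_of_pq {H : Type u} [Group H] (hpq : p ≠ q) {y : H} (h1 : ∃ k : ℕ, orderOf y = p ^ k) (h2 : ∃ k : ℕ, y ^ q ^ k = 1) : y = 1 := by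
  obtain ⟨k, hk⟩ := h1
  obtain ⟨j, hj⟩ := h2
  have h3 : p ^ k ∣ q ^ j := by rw [← hk]; exact orderOf_dvd_of_pow_eq_one hj
  have h4 : Nat.Coprime (p ^ k) (q ^ j) := Nat.Coprime.pow k j ((Nat.coprime_primes hp.out hq.out).mpr hpq)
  have h5 : p ^ k = 1 := Nat.Coprime.eq_one_of_dvd h4 h3
  rw [h5] at hk
  exact orderOf_eq_one_iff.mp hk

theorem mem_core (hpq : p ≠ q) (hsolv : IsPSolvable p G) {y : G} (hy : ∃ k : ℕ, y ^ q ^ k = 1)
    (hcen : ∀ r ∈ pCore p (G ⧸ pPrimeCore p G), (y : G ⧸ pPrimeCore p G) * r = r * y) : y ∈ pPrimeCore p G := by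
  have h1 := CfsgLib.PSolv17.centralizer_pCore_le (CfsgLib.PSolv19.psolv_quotient hp.out hsolv (pPrimeCore p G))
    (CfsgLib.Cores.pPrimeCore_quotient_pPrimeCore p)
  have h2 : (y : G ⧸ pPrimeCore p G) ∈ pCore p (G ⧸ pPrimeCore p G) := by
    apply h1
    rw [Subgroup.mem_centralizer_iff]
    intro r hr
    exact (hcen r hr).symm
  have h3 : (y : G ⧸ pPrimeCore p G) = 1 := by
    apply eq_one_of_pq hpq (p := p) (q := q)
    · obtain ⟨k, hk⟩ := IsPGroup.iff_orderOf.mp (CfsgLib.Cores.pCore_isPGroup p) ⟨_, h2⟩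
      exact ⟨k, by rw [← hk]; exact (Subgroup.orderOf_mk _ h2).symm⟩
    · obtain ⟨k, hk⟩ := hy
      exact ⟨k, by rw [← QuotientGroup.mk_pow, hk, QuotientGroup.mk_one]⟩
  exact (QuotientGroup.eq_one_iff y).mp h3

theorem not_dvd_of_norm (hpq : p ≠ q) (hsolv : IsPSolvable p G) (P : Sylow p G) (Q : Sylow q G)
    (hPQ : (P : Subgroup G) ≤ Subgroup.normalizer ((Q : Subgroup G) : Set G)) : ¬ q ∣ (pPrimeCore p G).index := by
  apply le_of_map_trivial _ Q
  intro y hy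
  obtain ⟨k, hk⟩ := IsPGroup.iff_orderOf.mp Q.isPGroup' ⟨y, hy⟩
  have hyk : y ^ q ^ k = 1 := by rw [← hk, Subgroup.orderOf_mk]; exact pow_orderOf_eq_one y
  apply mem_core hpq hsolv ⟨k, hyk⟩
  intro r hr
  have h1 : r ∈ (P.mapSurjective (QuotientGroup.mk'_surjective (pPrimeCore p G)) : Sylow p (G ⧸ pPrimeCore p G)) := CfsgLib.Cores.pCore_le_sylow _ hr
  have h2 : r ∈ (P : Subgroup G).map (QuotientGroup.mk' (pPrimeCore p G)) := h1
  obtain ⟨x, hx, hxr⟩ := h2
  -- the commutator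
  have h3 : x * y * x⁻¹ * y⁻¹ ∈ (Q : Subgroup G) := mul_mem ((Subgroup.mem_normalizer_iff.mp (hPQ hx) y).mp hy) (inv_mem hy)
  have h4 : ((x * y * x⁻¹ * y⁻¹ : G) : G ⧸ pPrimeCore p G) ∈ pCore p (G ⧸ pPrimeCore p G) := by
    have h5 : ((x * y * x⁻¹ * y⁻¹ : G) : G ⧸ pPrimeCore p G) = r * ((y : G ⧸ pPrimeCore p G) * r⁻¹ * (y : G ⧸ pPrimeCore p G)⁻¹) := by
      rw [← hxr]
      simp only [QuotientGroup.mk_mul, QuotientGroup.mk_inv, QuotientGroup.mk'_apply]
      group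
    rw [h5]
    exact mul_mem hr ((inferInstance : (pCore p (G ⧸ pPrimeCore p G)).Normal).conj_mem _ (inv_mem hr) _)
  have h5 : ((x * y * x⁻¹ * y⁻¹ : G) : G ⧸ pPrimeCore p G) = 1 := by
    apply eq_one_of_pq hpq (p := p) (q := q)
    · obtain ⟨k, hk⟩ := IsPGroup.iff_orderOf.mp (CfsgLib.Cores.pCore_isPGroup p) ⟨_, h4⟩
      exact ⟨k, by rw [← hk]; exact (Subgroup.orderOf_mk _ h4).symm⟩
    · obtain ⟨j, hj⟩ := Q.isPGroup' ⟨_, h3⟩
      refine ⟨j, ?_⟩
      have h6 : (x * y * x⁻¹ * y⁻¹) ^ q ^ j = 1 := congrArg Subtype.val hj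
      rw [← QuotientGroup.mk_pow, h6, QuotientGroup.mk_one]
  have h6 : (x : G ⧸ pPrimeCore p G) * y * (x : G ⧸ pPrimeCore p G)⁻¹ * (y : G ⧸ pPrimeCore p G)⁻¹ = 1 := by
    rw [← h5]; simp only [QuotientGroup.mk_mul, QuotientGroup.mk_inv]
  have h7 : (x : G ⧸ pPrimeCore p G) = r := hxr
  rw [h7] at h6
  have h8 := mul_inv_eq_one.mp h6
  exact (mul_inv_eq_iff_eq_mul.mp h8).symm

/-- a Sylow subgroup in the centralizer -/
theorem exists_sylow_centralizing {y : G} (h : ¬ p ∣ (Subgroup.centralizer ({y} : Set G)).index) :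
    ∃ P : Sylow p G, ∀ x ∈ (P : Subgroup G), x * y = y * x := by
  obtain ⟨S⟩ : Nonempty (Sylow p (Subgroup.centralizer ({y} : Set G))) := inferInstance
  have h1 : IsPGroup p ((S : Subgroup (Subgroup.centralizer ({y} : Set G))).map (Subgroup.subtype _)) := S.isPGroup'.map _
  have h2 : ¬ p ∣ ((S : Subgroup (Subgroup.centralizer ({y} : Set G))).map (Subgroup.subtype _)).index := by
    rw [Subgroup.index_map_subtype]
    intro h'
    rcases (Nat.Prime.dvd_mul hp.out).mp h' with h3 | h3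
    · exact S.not_dvd_index h3
    · exact h h3
  refine ⟨h1.toSylow h2, ?_⟩
  rintro x ⟨z, -, rfl⟩
  exact Subgroup.mem_centralizer_singleton_iff.mp z.2

/-- the `p`-solvable case -/
theorem psolv_case (hpq : p ≠ q) (hsolv : IsPSolvable p G)
    (h : ∀ y : G, (∃ k : ℕ, orderOf y = q ^ k) → ¬ p ∣ (Subgroup.centralizer ({y} : Set G)).index) : ¬ q ∣ (pPrimeCore p G).index := by
  obtain ⟨Q⟩ : Nonempty (Sylow q G) := inferInstance
  apply le_of_map_trivial _ Q
  intro y hy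
  obtain ⟨k, hk⟩ := IsPGroup.iff_orderOf.mp Q.isPGroup' ⟨y, hy⟩
  rw [Subgroup.orderOf_mk] at hk
  apply mem_core hpq hsolv ⟨k, by rw [← hk]; exact pow_orderOf_eq_one y⟩
  intro r hr
  obtain ⟨P, hP⟩ := exists_sylow_centralizing (h y ⟨k, hk⟩)
  have h1 : r ∈ (P.mapSurjective (QuotientGroup.mk'_surjective (pPrimeCore p G)) : Sylow p (G ⧸ pPrimeCore p G)) := CfsgLib.Cores.pCore_le_sylow _ hr
  have h2 : r ∈ (P : Subgroup G).map (QuotientGroup.mk' (pPrimeCore p G)) := h1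
  obtain ⟨x, hx, rfl⟩ := h2
  show (y : G ⧸ pPrimeCore p G) * x = x * y
  rw [← QuotientGroup.mk_mul, ← QuotientGroup.mk_mul, hP x hx]

theorem le_normalizer_of (P : Subgroup G) (Q : Subgroup G) (h : ∀ x ∈ P, ∀ y ∈ Q, x * y * x⁻¹ ∈ Q) : P ≤ Subgroup.normalizer (Q : Set G) := by
  intro x hx
  rw [Subgroup.mem_normalizer_iff]
  intro y
  refine ⟨fun hy => h x hx y hy, fun hy => ?_⟩
  have h1 := h x⁻¹ (inv_mem hx) _ hy
  have h2 : x⁻¹ * (x * y * x⁻¹) * x⁻¹⁻¹ = y := by group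
  rwa [h2] at h1

/-- hypothesis in quotients -/
theorem hyp_quot (N : Subgroup G) [hN : N.Normal] (h : ∀ y : G, (∃ k : ℕ, y ^ q ^ k = 1) → ∃ P : Sylow p G, ∀ x ∈ (P : Subgroup G), x * y = y * x) :
    ∀ y : G ⧸ N, (∃ k : ℕ, y ^ q ^ k = 1) → ∃ P : Sylow p (G ⧸ N), ∀ x ∈ (P : Subgroup (G ⧸ N)), x * y = y * x := by
  rintro y ⟨k, hk⟩
  have h1 : IsPGroup q (Subgroup.zpowers y) := by
    apply IsPGroup.of_card (n := (Nat.card (Subgroup.zpowers y)).factorization q)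
    rw [Nat.card_zpowers]
    have h2 : orderOf y ∣ q ^ k := orderOf_dvd_of_pow_eq_one hk
    obtain ⟨j, -, hj⟩ := (Nat.dvd_prime_pow hq.out).mp h2
    rw [hj, hq.out.factorization_pow]; simp
  obtain ⟨Qb, hQb⟩ := h1.exists_le_sylow
  obtain ⟨Q, hQ⟩ := Sylow.mapSurjective_surjective (QuotientGroup.mk'_surjective N) q Qb
  have h2 : y ∈ (Q : Subgroup G).map (QuotientGroup.mk' N) := by
    have h3 : y ∈ Qb := hQb (Subgroup.mem_zpowers y)
    rw [← hQ] at h3
    exact h3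
  obtain ⟨z, hz, rfl⟩ := h2
  obtain ⟨j, hj⟩ := Q.isPGroup' ⟨z, hz⟩
  obtain ⟨P, hP⟩ := h z ⟨j, congrArg Subtype.val hj⟩
  refine ⟨P.mapSurjective (QuotientGroup.mk'_surjective N), ?_⟩
  intro x hx
  have h3 : x ∈ (P : Subgroup G).map (QuotientGroup.mk' N) := hx
  obtain ⟨w, hw, rfl⟩ := h3
  rw [← map_mul, ← map_mul, hP w hw]

/-- Sylow subgroups normalized modulo `N` -/
theorem lift_norm (N : Subgroup G) [hN : N.Normal] (h : ∃ (P : Sylow p (G ⧸ N)) (Q : Sylow q (G ⧸ N)), (P : Subgroup (G ⧸ N)) ≤ Subgroup.normalizer ((Q : Subgroup (G ⧸ N)) : Set (G ⧸ N))) :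
    ∃ (P : Sylow p G) (Q : Sylow q G), ∀ x ∈ (P : Subgroup G), ∀ y ∈ (Q : Subgroup G), ∃ z ∈ (Q : Subgroup G), ∃ n ∈ N, x * y * x⁻¹ = z * n := by
  obtain ⟨Pb, Qb, hPQ⟩ := h
  obtain ⟨Q, hQ⟩ := Sylow.mapSurjective_surjective (QuotientGroup.mk'_surjective N) q Qb
  obtain ⟨P, hP⟩ := Sylow.mapSurjective_surjective (QuotientGroup.mk'_surjective N) p Pb
  refine ⟨P, Q, fun x hx y hy => ?_⟩
  have h1 : (x : G ⧸ N) ∈ (Pb : Subgroup (G ⧸ N)) := by rw [← hP]; exact ⟨x, hx, rfl⟩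
  have h2 : (y : G ⧸ N) ∈ (Qb : Subgroup (G ⧸ N)) := by rw [← hQ]; exact ⟨y, hy, rfl⟩
  have h3 := (Subgroup.mem_normalizer_iff.mp (hPQ h1) _).mp h2
  rw [← hQ] at h3
  obtain ⟨z, hz, hzz⟩ := h3
  refine ⟨z, hz, z⁻¹ * (x * y * x⁻¹), ?_, by group⟩
  exact QuotientGroup.eq.mp (hzz : (z : G ⧸ N) = ((x * y * x⁻¹ : G) : G ⧸ N))

end

/-- the `q`-solvable case -/
theorem qsolv_case {p q : ℕ} [hp : Fact p.Prime] [hq : Fact q.Prime] (hpq : p ≠ q) (n : ℕ) : ∀ (G : Type u) [Group G] [Finite G], Nat.card G = n → IsPSolvable q G →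
    (∀ y : G, (∃ k : ℕ, y ^ q ^ k = 1) → ∃ P : Sylow p G, ∀ x ∈ (P : Subgroup G), x * y = y * x) →
    ∃ (P : Sylow p G) (Q : Sylow q G), (P : Subgroup G) ≤ Subgroup.normalizer ((Q : Subgroup G) : Set G) := by
  classical
  induction n using Nat.strong_induction_on with
  | _ n ih =>
  intro G _ _ hn hs h
  by_cases hR : pCore q G = ⊥
  swap
  · have hlt : Nat.card (G ⧸ pCore q G) < n := by rw [← hn]; exact CfsgLib.SolvBasic.card_quotient_lt _ hR
    obtain ⟨P, Q, hPQ⟩ := lift_norm (pCore q G) (ih _ hlt (G ⧸ pCore q G) rfl (CfsgLib.PSolv19.psolv_quotient hq.out hs _) (hyp_quot _ h))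
    refine ⟨P, Q, le_normalizer_of _ _ fun x hx y hy => ?_⟩
    obtain ⟨z, hz, m, hm, he⟩ := hPQ x hx y hy
    rw [he]
    exact mul_mem hz (CfsgLib.Cores.pCore_le_sylow Q hm)
  by_cases hN : pPrimeCore q G = ⊥
  · -- the group is trivial
    have h1 := CfsgLib.PSolv17.centralizer_pCore_le hs hN
    rw [hR] at h1
    have h2 : ∀ x : G, x = 1 := by
      intro x
      have h3 : x ∈ Subgroup.centralizer ((⊥ : Subgroup G) : Set G) := by
        rw [Subgroup.mem_centralizer_iff]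
        intro y hy
        have : y = 1 := Subgroup.mem_bot.mp hy
        rw [this]; simp
      exact Subgroup.mem_bot.mp (h1 h3)
    obtain ⟨P⟩ : Nonempty (Sylow p G) := inferInstance
    obtain ⟨Q⟩ : Nonempty (Sylow q G) := inferInstance
    refine ⟨P, Q, le_normalizer_of _ _ fun x hx y hy => ?_⟩
    rw [h2 (x * y * x⁻¹)]; exact one_mem _
  obtain ⟨N, hNdef⟩ : ∃ N, N = pPrimeCore q G := ⟨_, rfl⟩
  haveI hNn : N.Normal := by rw [hNdef]; infer_instance
  rw [← hNdef] at hN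
  have hNcop : (Nat.card N).Coprime q := by rw [hNdef]; exact CfsgLib.Cores.pPrimeCore_coprime q
  have hlt : Nat.card (G ⧸ N) < n := by rw [← hn]; exact CfsgLib.SolvBasic.card_quotient_lt _ hN
  obtain ⟨P, Q, hPQ⟩ := lift_norm N (ih _ hlt (G ⧸ N) rfl (CfsgLib.PSolv19.psolv_quotient hq.out hs _) (hyp_quot _ h))
  -- a `Q`-invariant Sylow `p`-subgroup of `N` is centralized by `Q`
  have hnormN : ∀ A : Subgroup G, A ≤ Subgroup.normalizer (N : Set G) := fun A => by rw [Subgroup.normalizer_eq_top]; exact le_top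
  have hQcop : (Nat.card (Q : Subgroup G)).Coprime (Nat.card N) := by
    obtain ⟨a, ha⟩ := IsPGroup.iff_card.mp Q.isPGroup'
    rw [ha]; exact (hNcop.symm).pow_left a
  haveI : Group.IsNilpotent (Q : Subgroup G) := Q.isPGroup'.isNilpotent
  obtain ⟨S, hS⟩ := CfsgLib.Coprime.exists_invariant_sylow (hnormN (Q : Subgroup G)) hQcop (Or.inl inferInstance) p
  have hcent : ∀ s ∈ (S : Subgroup N).map N.subtype, ∀ y ∈ (Q : Subgroup G), s * y = y * s := by
    intro s hs y hy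
    obtain ⟨k, hk⟩ := Q.isPGroup' ⟨y, hy⟩
    have hk' : y ^ q ^ k = 1 := congrArg Subtype.val hk
    obtain ⟨P₁, hP₁⟩ := h y ⟨k, hk'⟩
    obtain ⟨T, hT⟩ := CfsgLib.LE.sylow_inf_normal P₁ N hNn
    have hzQ : Subgroup.zpowers y ≤ (Q : Subgroup G) := Subgroup.zpowers_le.mpr hy
    have hzc : (Nat.card (Subgroup.zpowers y)).Coprime (Nat.card N) := Nat.Coprime.coprime_dvd_left (Subgroup.card_dvd_of_le hzQ) hQcop
    have hTc : ∀ t ∈ (T : Subgroup N).map N.subtype, t * y = y * t := by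
      rintro _ ⟨t, ht, rfl⟩
      rw [hT] at ht
      exact hP₁ _ (Subgroup.mem_subgroupOf.mp ht)
    have hTinv : Subgroup.zpowers y ≤ Subgroup.normalizer (((T : Subgroup N).map N.subtype) : Set G) := by
      apply le_normalizer_of
      rintro x ⟨i, rfl⟩ t ht
      have h3 : Commute t (y ^ i) := (show Commute t y from hTc t ht).zpow_right i
      show y ^ i * t * (y ^ i)⁻¹ ∈ _
      rw [← h3.eq, mul_inv_cancel_right]; exact ht
    obtain ⟨c, hc1, hc2⟩ := CfsgLib.Coprime.invariant_sylow_conj (hnormN (Subgroup.zpowers y)) hzc (Or.inl inferInstance) p T S hTinv (hzQ.trans hS)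
    obtain ⟨s, hs, rfl⟩ := hs
    have h4 : s ∈ MulAut.conj c • (T : Subgroup N) := by
      have : (MulAut.conj c • T : Sylow p N) = S := hc2
      rw [← this] at hs
      exact hs
    obtain ⟨t, ht, hts⟩ := h4
    have h5 : (s : G) = c * t * (c : G)⁻¹ := by rw [← hts]; rfl
    have h6 : Commute (t : G) y := hTc t ⟨t, ht, rfl⟩
    have h7 : Commute (c : G) y := (Subgroup.mem_centralizer_iff.mp hc1 y (Subgroup.mem_zpowers y)).symm
    show (s : G) * y = y * s
    rw [h5]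
    exact ((h7.mul_left h6).mul_left h7.inv_left)
  -- the orbit of `Q` under `N`
  let Ω : Set (Sylow q G) := MulAction.orbit N Q
  have hΩmem : ∀ R : Sylow q G, R ∈ Ω ↔ ∃ m : N, (m : G) • Q = R := fun R => Iff.rfl
  have hΩp : ¬ p ∣ Nat.card Ω := by
    have h1 : (MulAction.stabilizer N Q).index = Nat.card Ω := by
      rw [MulAction.index_stabilizer]; rfl
    rw [← h1]
    intro h2
    have h3 : (S : Subgroup N) ≤ MulAction.stabilizer N Q := by
      intro s hs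
      rw [MulAction.mem_stabilizer_iff]
      show (s : G) • Q = Q
      rw [Sylow.smul_eq_iff_mem_normalizer]
      have h4 : Subgroup.zpowers (s : G) ≤ Subgroup.normalizer ((Q : Subgroup G) : Set G) := by
        apply le_normalizer_of
        rintro x ⟨i, rfl⟩ y hy
        have h5 : Commute (s : G) y := hcent s ⟨s, hs, rfl⟩ y hy
        have h6 : Commute ((s : G) ^ i) y := h5.zpow_left i
        show (s : G) ^ i * y * ((s : G) ^ i)⁻¹ ∈ _
        rw [h6.eq, mul_inv_cancel_right]; exact hy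
      exact h4 (Subgroup.mem_zpowers _)
    exact S.not_dvd_index (h2.trans (Subgroup.index_dvd_of_le h3))
  have hstab : ∀ x ∈ (P : Subgroup G), ∀ R ∈ Ω, x • R ∈ Ω := by
    intro x hx R hR
    obtain ⟨m, rfl⟩ := (hΩmem R).mp hR
    set L : Subgroup G := (Q : Subgroup G) ⊔ N with hL
    have hQL : (Q : Subgroup G) ≤ L := le_sup_left
    have hxQ : ((x • Q : Sylow q G) : Subgroup G) ≤ L := by
      rintro _ ⟨y, hy, rfl⟩
      show x * y * x⁻¹ ∈ L
      obtain ⟨z, hz, m', hm', he⟩ := hPQ x hx y hy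
      rw [he]
      exact mul_mem (Subgroup.mem_sup_left hz) (Subgroup.mem_sup_right hm')
    obtain ⟨k, hk, hkQ⟩ := CfsgLib.Coprime.sylow_map_conj (Q.subtype hQL) ((x • Q : Sylow q G).subtype hxQ)
    have e1 : ((Q.subtype hQL : Sylow q L) : Subgroup L).map L.subtype = (Q : Subgroup G) := by
      show ((Q : Subgroup G).subgroupOf L).map L.subtype = _
      rw [Subgroup.subgroupOf_map_subtype, inf_of_le_left hQL]
    have e2 : (((x • Q : Sylow q G).subtype hxQ : Sylow q L) : Subgroup L).map L.subtype = ((x • Q : Sylow q G) : Subgroup G) := by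
      show (((x • Q : Sylow q G) : Subgroup G).subgroupOf L).map L.subtype = _
      rw [Subgroup.subgroupOf_map_subtype, inf_of_le_left hxQ]
    rw [e1, e2] at hkQ
    have h1 : k • Q = x • Q := Sylow.ext hkQ
    have h2 : k ∈ ((Q : Subgroup G) : Set G) * (N : Set G) := by
      rw [← Subgroup.mul_normal]; exact hk
    obtain ⟨y, hy, m', hm', hkk⟩ := h2
    have hkk : y * m' = k := hkk
    subst hkk
    have h3 : y • Q = Q := by
      rw [Sylow.smul_eq_iff_mem_normalizer]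
      exact Subgroup.le_normalizer hy
    have h4 : (y * m' * y⁻¹) • Q = x • Q := by
      rw [← h1]
      conv_rhs => rw [show y * m' = (y * m' * y⁻¹) * y by group, mul_smul, h3]
    rw [hΩmem]
    refine ⟨⟨(x * m * x⁻¹) * (y * m' * y⁻¹), mul_mem (hNn.conj_mem m m.2 x) (hNn.conj_mem m' hm' y)⟩, ?_⟩
    show ((x * m * x⁻¹) * (y * m' * y⁻¹)) • Q = x • ((m : G) • Q)
    rw [mul_smul, h4, ← mul_smul, ← mul_smul]
    congr 1
    group
  letI act : MulAction (P : Subgroup G) Ω :=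
    { smul := fun x R => ⟨(x : G) • R.1, hstab x x.2 R.1 R.2⟩
      one_smul := fun R => Subtype.ext (one_smul G R.1)
      mul_smul := fun x y R => Subtype.ext (mul_smul (x : G) (y : G) R.1) }
  obtain ⟨R, hR⟩ := P.isPGroup'.nonempty_fixed_point_of_prime_not_dvd_card Ω hΩp
  refine ⟨P, R.1, fun x hx => ?_⟩
  have h1 : x • R.1 = R.1 := congrArg Subtype.val (hR ⟨x, hx⟩)
  rw [Sylow.smul_eq_iff_mem_normalizer] at h1
  exact h1

end CfsgLib.NormSyl20
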