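import Mathlib
import Cfsg.Agent.LibO168a

/-! Simple groups of order `168` (seat helper15). -/

set_option autoImplicit false
set_option linter.all false

namespace CfsgLib.O168

open Subgroup MulAction

universe u

section simple
variable {G : Type u} [Group G] [Finite G] [hsimp : IsSimpleGroup G]

/-- Burnside's transfer theorem in a simple group -/
theorem not_burnside {q : ℕ} [hq : Fact q.Prime] (P : Sylow q G) (hne : (P : Subgroup G) ≠ ⊥) (htop : (P : Subgroup G) ≠ ⊤) :
    ¬ normalizer ((P : Subgroup G) : Set G) ≤ centralizer ((P : Subgroup G) : Set G) := by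
  intro hP
  have hcomp := MonoidHom.ker_transferSylow_isComplement' P hP
  rcases (inferInstance : (MonoidHom.transferSylow P hP).ker.Normal).eq_bot_or_eq_top with h | h
  · rw [h] at hcomp
    exact htop (isComplement'_bot_left.1 hcomp)
  · rw [h] at hcomp
    exact hne (isComplement'_top_left.1 hcomp)

theorem dvd_fact (H : Subgroup G) (hH : H ≠ ⊤) : Nat.card G ∣ (H.index).factorial := by
  have hk : (MulAction.toPermHom G (G ⧸ H)).ker = ⊥ := by
    rcases (inferInstance : (MulAction.toPermHom G (G ⧸ H)).ker.Normal).eq_bot_or_eq_top with h | h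
    · exact h
    · exfalso
      apply hH
      rw [← normalCore_eq_ker] at h
      rw [eq_top_iff, ← h]
      exact normalCore_le H
  have hinj := (MonoidHom.ker_eq_bot_iff _).1 hk
  have h1 := card_dvd_of_injective _ hinj
  rw [Nat.card_perm] at h1
  exact h1

variable (h : Nat.card G = 168)
include h

theorem sylow_ne_one {p : ℕ} [hp : Fact p.Prime] {k m : ℕ} (hk : k ≠ 0) (hm1 : m ≠ 1) (h' : Nat.card G = p ^ k * m) (hm : ¬ p ∣ m) :
    Nat.card (Sylow p G) ≠ 1 := by
  intro h1
  obtain ⟨P⟩ : Nonempty (Sylow p G) := inferInstance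
  have hP := sylow_card h' hm P
  have hpk : 1 < p ^ k := Nat.one_lt_pow hk hp.out.one_lt
  rcases (normal_of_card_one h1 P).eq_bot_or_eq_top with h2 | h2
  · rw [h2, card_bot] at hP
    omega
  · rw [h2, card_top, h'] at hP
    have hm0 : m ≠ 0 := by rintro rfl; exact hm (dvd_zero _)
    have : m = 1 := by
      have h3 : p ^ k * m = p ^ k * 1 := by omega
      exact Nat.eq_of_mul_eq_mul_left (by omega) h3
    exact hm1 this

theorem card_syl7 : Nat.card (Sylow 7 G) = 8 := by
  haveI : Fact (Nat.Prime 7) := ⟨by norm_num⟩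
  obtain ⟨P⟩ : Nonempty (Sylow 7 G) := inferInstance
  have hP : Nat.card (P : Subgroup G) = 7 := by
    have := sylow_card (p := 7) (k := 1) (m := 24) (by rw [h]; rfl) (by decide) P
    simpa using this
  have h1 := P.card_dvd_index
  have h2 := (P : Subgroup G).index_mul_card
  rw [hP, h] at h2
  have h3 : (P : Subgroup G).index = 24 := by omega
  rw [h3] at h1
  have hmod := card_sylow_modEq_one 7 G
  have hle := Nat.le_of_dvd (by norm_num) h1
  have h0 : 0 < Nat.card (Sylow 7 G) := Nat.card_pos
  have hne : Nat.card (Sylow 7 G) ≠ 1 := sylow_ne_one h (p := 7) (k := 1) (m := 24) (by decide) (by decide) (by rw [h]; rfl) (by decide)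
  unfold Nat.ModEq at hmod
  interval_cases hc : Nat.card (Sylow 7 G) <;> omega

theorem sy7 (P : Sylow 7 G) : Nat.card (P : Subgroup G) = 7 := by
  haveI : Fact (Nat.Prime 7) := ⟨by norm_num⟩
  have := sylow_card (p := 7) (k := 1) (m := 24) (by rw [h]; rfl) (by decide) P
  simpa using this

theorem sy3 (P : Sylow 3 G) : Nat.card (P : Subgroup G) = 3 := by
  haveI : Fact (Nat.Prime 3) := ⟨by norm_num⟩
  have := sylow_card (p := 3) (k := 1) (m := 56) (by rw [h]; rfl) (by decide) P
  simpa using this

theorem sy2 (P : Sylow 2 G) : Nat.card (P : Subgroup G) = 8 := by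
  haveI : Fact (Nat.Prime 2) := ⟨by norm_num⟩
  have := sylow_card (p := 2) (k := 3) (m := 21) (by rw [h]; rfl) (by decide) P
  simpa using this

theorem norm7 (P : Sylow 7 G) : Nat.card (normalizer ((P : Subgroup G) : Set G)) = 21 := by
  haveI : Fact (Nat.Prime 7) := ⟨by norm_num⟩
  have h1 := syl_index P
  have h2 := (normalizer ((P : Subgroup G) : Set G)).index_mul_card
  rw [← h1, card_syl7 h, h] at h2
  omega

theorem ne_bot_of {H : Subgroup G} {n : ℕ} (hn : Nat.card H = n) (h1 : n ≠ 1) : H ≠ ⊥ := by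
  rintro rfl
  rw [card_bot] at hn
  exact h1 hn.symm

theorem ne_top_of {H : Subgroup G} {n : ℕ} (hn : Nat.card H = n) (h1 : n ≠ 168) : H ≠ ⊤ := by
  rintro rfl
  rw [card_top, h] at hn
  exact h1 hn.symm

/-- subgroups of prime order are Sylow subgroups -/
theorem cen_le_norm (H : Subgroup G) : centralizer (H : Set G) ≤ normalizer (H : Set G) := by
  intro g hg
  rw [mem_normalizer_iff]
  intro x
  rw [mem_centralizer_iff] at hg
  constructor
  · intro hx
    have := hg x hx
    rw [← this]; simpa using hx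
  · intro hx
    have h1 := hg _ hx
    have : x = g * x * g⁻¹ := by
      have h2 : g * x * g⁻¹ * g = g * (g * x * g⁻¹) := h1
      have h3 : g * x = g * (g * x * g⁻¹) := by rw [← h2]; group
      exact mul_left_cancel h3
    rw [this]; exact hx

theorem le_cen_self {p : ℕ} [hp : Fact p.Prime] {H : Subgroup G} (hH : Nat.card H = p) : H ≤ centralizer (H : Set G) := by
  haveI : IsCyclic H := isCyclic_of_prime_card hH
  intro x hx
  rw [mem_centralizer_iff]
  intro y hy
  have := (IsCyclic.commutative (α := H)).is_comm.comm ⟨y, hy⟩ ⟨x, hx⟩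
  exact congrArg Subtype.val this

theorem cen7P (P : Sylow 7 G) : Nat.card (centralizer ((P : Subgroup G) : Set G)) = 7 := by
  haveI : Fact (Nat.Prime 7) := ⟨by norm_num⟩
  have h1 := card_dvd_of_le (cen_le_norm h (P : Subgroup G))
  have h2 := card_dvd_of_le (le_cen_self h (sy7 h P))
  rw [norm7 h] at h1
  rw [sy7 h] at h2
  have h3 := Nat.le_of_dvd (by norm_num) h1
  have h4 : Nat.card (centralizer ((P : Subgroup G) : Set G)) ≠ 21 := by
    intro h5
    apply not_burnside P (ne_bot_of h (sy7 h P) (by decide)) (ne_top_of h (sy7 h P) (by decide))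
    apply le_of_eq
    symm
    apply eq_of_le_of_card_ge (cen_le_norm h _)
    rw [norm7 h, h5]
  obtain ⟨k, hk⟩ := h2
  rw [hk] at h1 h3 h4 ⊢
  have h5 : k ≤ 3 := by omega
  interval_cases k <;> omega

theorem exists_syl {p : ℕ} [hp : Fact p.Prime] (hsy : ∀ P : Sylow p G, Nat.card (P : Subgroup G) = p) {H : Subgroup G} (hH : Nat.card H = p) :
    ∃ Q : Sylow p G, (Q : Subgroup G) = H := by
  have hpg : IsPGroup p H := by
    rw [IsPGroup.iff_card]
    exact ⟨1, by rw [hH, pow_one]⟩
  obtain ⟨Q, hQ⟩ := hpg.exists_le_sylow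
  refine ⟨Q, ?_⟩
  symm
  apply eq_of_le_of_card_ge hQ
  rw [hsy Q, hH]

theorem card_syl3 : Nat.card (Sylow 3 G) = 28 := by
  haveI : Fact (Nat.Prime 3) := ⟨by norm_num⟩
  haveI : Fact (Nat.Prime 7) := ⟨by norm_num⟩
  obtain ⟨P⟩ : Nonempty (Sylow 3 G) := inferInstance
  have h1 := P.card_dvd_index
  have h2 := (P : Subgroup G).index_mul_card
  rw [sy3 h, h] at h2
  have h3 : (P : Subgroup G).index = 56 := by omega
  rw [h3] at h1
  have hmod := card_sylow_modEq_one 3 G
  have hle := Nat.le_of_dvd (by norm_num) h1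
  have h0 : 0 < Nat.card (Sylow 3 G) := Nat.card_pos
  have hne1 : Nat.card (Sylow 3 G) ≠ 1 := sylow_ne_one h (p := 3) (k := 1) (m := 56) (by decide) (by decide) (by rw [h]; rfl) (by decide)
  have hne4 : Nat.card (Sylow 3 G) ≠ 4 := by
    intro h4
    have h5 := syl_index P
    rw [h4] at h5
    have h6 : normalizer ((P : Subgroup G) : Set G) ≠ ⊤ := by
      intro h7
      rw [h7, index_top] at h5
      omega
    have h7 := dvd_fact _ h6
    rw [← h5, h] at h7
    revert h7
    decide
  have hne7 : Nat.card (Sylow 3 G) ≠ 7 := by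
    intro h4
    obtain ⟨R⟩ : Nonempty (Sylow 7 G) := inferInstance
    have hR := sy7 h R
    obtain ⟨y, hy1, hy2⟩ := prime_exists (p := 3) (H := normalizer ((R : Subgroup G) : Set G)) (by rw [norm7 h]; decide)
    obtain ⟨Q, hQ⟩ := exists_syl h (sy3 h) (H := zpowers y) (by rw [Nat.card_zpowers, hy2])
    have hQB : (Q : Subgroup G) ≤ normalizer ((R : Subgroup G) : Set G) := by
      rw [hQ, zpowers_le]; exact hy1
    have hRQ : ∀ u ∈ (R : Subgroup G), u ≠ 1 → u ∉ normalizer ((Q : Subgroup G) : Set G) := by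
      intro u hu hu1 huN
      have hRN : (R : Subgroup G) ≤ normalizer ((Q : Subgroup G) : Set G) := by
        have hz : zpowers u = (R : Subgroup G) := by
          apply eq_of_le_of_card_ge
          · rwa [zpowers_le]
          · have h5 : Nat.card (zpowers u) ∣ 7 := by
              rw [← hR]
              exact card_dvd_of_le (by rwa [zpowers_le])
            rcases (Nat.dvd_prime (by norm_num)).1 h5 with h6 | h6
            · exfalso
              rw [Nat.card_zpowers, orderOf_eq_one_iff] at h6
              exact hu1 h6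
            · rw [h6, hR]
        rw [← hz, zpowers_le]
        exact huN
      have hRQ1 : (R : Subgroup G) ⊓ (Q : Subgroup G) = ⊥ := by
        apply Subgroup.inf_eq_bot_of_coprime
        rw [hR, sy3 h]
        decide
      have hyC : zpowers y ≤ centralizer ((R : Subgroup G) : Set G) := by
        rw [zpowers_le, mem_centralizer_iff]
        intro a ha
        exact comm_of_norm hRN hQB hRQ1 ha (by rw [hQ]; exact mem_zpowers y)
      have h5 := card_dvd_of_le hyC
      rw [cen7P h, Nat.card_zpowers, hy2] at h5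
      omega
    have hbij : Function.Bijective (fun x : (R : Subgroup G) => (x : G) • Q) := by
      rw [Nat.bijective_iff_injective_and_card]
      refine ⟨?_, by rw [hR, h4]⟩
      intro a b hab
      have h5 : ((b : G)⁻¹ * a) • Q = Q := by
        have hab' : (a : G) • Q = (b : G) • Q := hab
        rw [mul_smul, hab', inv_smul_smul]
      by_contra hne
      apply hRQ ((b : G)⁻¹ * a) (mul_mem (inv_mem b.2) a.2)
      · intro h6
        apply hne
        apply Subtype.ext
        exact (inv_mul_eq_one.1 h6).symm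
      · exact Sylow.smul_eq_iff_mem_normalizer.1 h5
    have hsub : normalClosure ((Q : Subgroup G) : Set G) ≤ normalizer ((R : Subgroup G) : Set G) := by
      unfold normalClosure
      rw [closure_le]
      intro w hw
      rw [Group.mem_conjugatesOfSet_iff] at hw
      obtain ⟨q, hq, hqw⟩ := hw
      obtain ⟨c, rfl⟩ := isConj_iff.1 hqw
      obtain ⟨x, hx⟩ := hbij.2 (c • Q)
      have h5 : c * q * c⁻¹ ∈ ((c • Q : Sylow 3 G) : Subgroup G) := by
        rw [Sylow.coe_subgroup_smul]
        exact ⟨q, hq, rfl⟩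
      rw [← hx] at h5
      simp only [Sylow.coe_subgroup_smul] at h5
      obtain ⟨q', hq', hqc⟩ := h5
      have h6 : c * q * c⁻¹ = x * q' * x⁻¹ := hqc.symm
      change c * q * c⁻¹ ∈ normalizer ((R : Subgroup G) : Set G)
      rw [h6]
      exact mul_mem (mul_mem (le_normalizer x.2) (hQB hq')) (inv_mem (le_normalizer x.2))
    have hB := norm7 h R
    rcases (normalClosure_normal (s := ((Q : Subgroup G) : Set G))).eq_bot_or_eq_top with h5 | h5
    · have h6 : (Q : Subgroup G) ≤ ⊥ := by rw [← h5]; exact subset_normalClosure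
      exact ne_bot_of h (sy3 h Q) (by decide) (le_bot_iff.1 h6)
    · rw [h5, top_le_iff] at hsub
      exact ne_top_of h hB (by decide) hsub
  unfold Nat.ModEq at hmod
  interval_cases hc : Nat.card (Sylow 3 G) <;> omega

theorem norm3 (P : Sylow 3 G) : Nat.card (normalizer ((P : Subgroup G) : Set G)) = 6 := by
  haveI : Fact (Nat.Prime 3) := ⟨by norm_num⟩
  have h1 := syl_index P
  have h2 := (normalizer ((P : Subgroup G) : Set G)).index_mul_card
  rw [← h1, card_syl3 h, h] at h2
  omega

theorem cen3P (P : Sylow 3 G) : Nat.card (centralizer ((P : Subgroup G) : Set G)) = 3 := by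
  haveI : Fact (Nat.Prime 3) := ⟨by norm_num⟩
  have h1 := card_dvd_of_le (cen_le_norm h (P : Subgroup G))
  have h2 := card_dvd_of_le (le_cen_self h (sy3 h P))
  rw [norm3 h] at h1
  rw [sy3 h] at h2
  have h3 := Nat.le_of_dvd (by norm_num) h1
  have h4 : Nat.card (centralizer ((P : Subgroup G) : Set G)) ≠ 6 := by
    intro h5
    apply not_burnside P (ne_bot_of h (sy3 h P) (by decide)) (ne_top_of h (sy3 h P) (by decide))
    apply le_of_eq
    symm
    apply eq_of_le_of_card_ge (cen_le_norm h _)
    rw [norm3 h, h5]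
  obtain ⟨k, hk⟩ := h2
  rw [hk] at h1 h3 h4 ⊢
  have h5 : k ≤ 2 := by omega
  interval_cases k <;> omega

theorem cen_zpowers (x : G) : centralizer ((zpowers x : Subgroup G) : Set G) = centralizer ({x} : Set G) := by
  apply le_antisymm
  · exact centralizer_le (by simp)
  · intro g hg
    rw [mem_centralizer_singleton_iff] at hg
    rw [mem_centralizer_iff]
    rintro y ⟨k, rfl⟩
    exact (Commute.zpow_left (show Commute x g from hg.symm) k)

theorem cen3 {x : G} (hx : orderOf x = 3) : Nat.card (centralizer ({x} : Set G)) = 3 := by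
  haveI : Fact (Nat.Prime 3) := ⟨by norm_num⟩
  obtain ⟨Q, hQ⟩ := exists_syl h (sy3 h) (H := zpowers x) (by rw [Nat.card_zpowers, hx])
  rw [← cen_zpowers h, ← hQ]
  exact cen3P h Q

theorem cen7 {x : G} (hx : orderOf x = 7) : Nat.card (centralizer ({x} : Set G)) = 7 := by
  haveI : Fact (Nat.Prime 7) := ⟨by norm_num⟩
  obtain ⟨Q, hQ⟩ := exists_syl h (sy7 h) (H := zpowers x) (by rw [Nat.card_zpowers, hx])
  rw [← cen_zpowers h, ← hQ]
  exact cen7P h Q

/-- the order of an element divisible by `3` or `7` -/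
theorem ord_of_dvd {p : ℕ} (hp : p.Prime) (hc : ∀ x : G, orderOf x = p → Nat.card (centralizer ({x} : Set G)) = p)
    {g : G} (hg : p ∣ orderOf g) : orderOf g = p := by
  obtain ⟨k, hk⟩ := hg
  have hg0 : 0 < orderOf g := orderOf_pos g
  have hk0 : k ≠ 0 := by rintro rfl; omega
  have hx : orderOf (g ^ k) = p := by
    rw [orderOf_pow' g hk0, hk, Nat.gcd_eq_right (Dvd.intro_left p rfl)]
    exact Nat.mul_div_cancel _ (by omega)
  have h1 : g ∈ centralizer ({g ^ k} : Set G) := by
    rw [mem_centralizer_singleton_iff]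
    exact (pow_succ' g k).symm.trans (pow_succ g k)
  have h2 : orderOf g ∣ p := by
    have h3 := Subgroup.orderOf_dvd_natCard _ h1
    rwa [hc _ hx] at h3
  rcases (Nat.dvd_prime hp).1 h2 with h3 | h3
  · exfalso
    rw [h3] at hk
    have := hp.one_lt
    have h4 : p * k = 1 := hk.symm
    have := Nat.eq_one_of_mul_eq_one_right h4
    omega
  · exact h3

theorem ord_cases (g : G) : orderOf g ∣ 8 ∨ orderOf g = 3 ∨ orderOf g = 7 := by
  by_cases h3 : 3 ∣ orderOf g
  · right; left; exact ord_of_dvd h (by norm_num) (fun x hx => cen3 h hx) h3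
  · by_cases h7 : 7 ∣ orderOf g
    · right; right; exact ord_of_dvd h (by norm_num) (fun x hx => cen7 h hx) h7
    · left
      have h1 : orderOf g ∣ 8 * 21 := by
        have := orderOf_dvd_natCard g
        rwa [h] at this
      apply Nat.Coprime.dvd_of_dvd_mul_right _ h1
      have h2 : Nat.Coprime (orderOf g) 3 := (Nat.Prime.coprime_iff_not_dvd (by norm_num)).2 h3 |>.symm
      have h4 : Nat.Coprime (orderOf g) 7 := (Nat.Prime.coprime_iff_not_dvd (by norm_num)).2 h7 |>.symm
      exact Nat.Coprime.mul_right h2 h4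

end simple

end CfsgLib.O168
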