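import Mathlib
import Cfsg.Agent.LibO168b
import Cfsg.Agent.LibSmall27

/-! Simple groups of order `168`: the Sylow 2-subgroups (seat helper15). -/

set_option autoImplicit false
set_option linter.all false

namespace CfsgLib.O168

open Subgroup MulAction

universe u

section simple
variable {G : Type u} [Group G] [Finite G] [hsimp : IsSimpleGroup G]
variable (h : Nat.card G = 168)
include h

theorem cen_two_dvd {t : G} (ht : orderOf t = 2) : Nat.card (centralizer ({t} : Set G)) ∣ 8 := by
  haveI : Fact (Nat.Prime 3) := ⟨by norm_num⟩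
  haveI : Fact (Nat.Prime 7) := ⟨by norm_num⟩
  have h3 : ¬ 3 ∣ Nat.card (centralizer ({t} : Set G)) := by
    intro h3
    obtain ⟨x, hx1, hx2⟩ := prime_exists h3
    have h4 : t ∈ centralizer ({x} : Set G) := mem_centralizer_singleton_iff.2 (mem_centralizer_singleton_iff.1 hx1).symm
    have h5 := Subgroup.orderOf_dvd_natCard _ h4
    rw [cen3 h hx2, ht] at h5
    omega
  have h7 : ¬ 7 ∣ Nat.card (centralizer ({t} : Set G)) := by
    intro h3
    obtain ⟨x, hx1, hx2⟩ := prime_exists h3
    have h4 : t ∈ centralizer ({x} : Set G) := mem_centralizer_singleton_iff.2 (mem_centralizer_singleton_iff.1 hx1).symm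
    have h5 := Subgroup.orderOf_dvd_natCard _ h4
    rw [cen7 h hx2, ht] at h5
    omega
  have h1 : Nat.card (centralizer ({t} : Set G)) ∣ 8 * 21 := by
    have := card_subgroup_dvd_card (centralizer ({t} : Set G))
    rwa [h] at this
  apply Nat.Coprime.dvd_of_dvd_mul_right _ h1
  have h2 := ((Nat.Prime.coprime_iff_not_dvd (p := 3) (by norm_num)).2 h3).symm
  have h4 := ((Nat.Prime.coprime_iff_not_dvd (p := 7) (by norm_num)).2 h7).symm
  exact Nat.Coprime.mul_right h2 h4

theorem card_syl2 : Nat.card (Sylow 2 G) = 21 := by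
  haveI : Fact (Nat.Prime 2) := ⟨by norm_num⟩
  haveI : Fact (Nat.Prime 3) := ⟨by norm_num⟩
  obtain ⟨P⟩ : Nonempty (Sylow 2 G) := inferInstance
  have h1 := P.card_dvd_index
  have h2 := (P : Subgroup G).index_mul_card
  rw [sy2 h, h] at h2
  have h3 : (P : Subgroup G).index = 21 := by omega
  rw [h3] at h1
  have hle := Nat.le_of_dvd (by norm_num) h1
  have h0 : 0 < Nat.card (Sylow 2 G) := Nat.card_pos
  have hne1 : Nat.card (Sylow 2 G) ≠ 1 := sylow_ne_one h (p := 2) (k := 3) (m := 21) (by decide) (by decide) (by rw [h]; rfl) (by decide)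
  have hne3 : Nat.card (Sylow 2 G) ≠ 3 := by
    intro h4
    have h5 := syl_index P
    rw [h4] at h5
    have h6 : normalizer ((P : Subgroup G) : Set G) ≠ ⊤ := by
      intro h7
      rw [h7, index_top] at h5
      omega
    have h7 := dvd_fact _ h6
    rw [← h5, h] at h7
    revert h7
    decide
  have hne7 : Nat.card (Sylow 2 G) ≠ 7 := by
    intro h4
    have h5 := syl_index P
    have h6 := (normalizer ((P : Subgroup G) : Set G)).index_mul_card
    rw [← h5, h4, h] at h6
    obtain ⟨q, hq1, hq2⟩ := prime_exists (p := 3) (H := normalizer ((P : Subgroup G) : Set G)) (by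
      have : Nat.card (normalizer ((P : Subgroup G) : Set G)) = 24 := by omega
      rw [this]; decide)
    let φ : zpowers q →* MulAut (P : Subgroup G) :=
      (Subgroup.normalizerMonoidHom (P : Subgroup G)).comp (Subgroup.inclusion (show zpowers q ≤ normalizer ((P : Subgroup G) : Set G) by rwa [zpowers_le]))
    letI : MulAction (zpowers q) (P : Subgroup G) := MulAction.compHom _ φ
    have hpg : IsPGroup 3 (zpowers q) := by
      rw [IsPGroup.iff_card]
      exact ⟨1, by rw [Nat.card_zpowers, hq2, pow_one]⟩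
    have h7 := hpg.card_modEq_card_fixedPoints (P : Subgroup G)
    rw [sy2 h] at h7
    have h8 : Nat.card (fixedPoints (zpowers q) (P : Subgroup G)) ≤ 1 := by
      rw [Finite.card_le_one_iff_subsingleton]
      constructor
      have key : ∀ a : fixedPoints (zpowers q) (P : Subgroup G), ((a : (P : Subgroup G)) : G) = 1 := by
        intro a
        have h9 := a.2 ⟨q, mem_zpowers q⟩
        have h10 : q * ((a : (P : Subgroup G)) : G) * q⁻¹ = ((a : (P : Subgroup G)) : G) := congrArg Subtype.val h9
        have h11 : ((a : (P : Subgroup G)) : G) ∈ centralizer ({q} : Set G) := by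
          rw [mem_centralizer_singleton_iff]
          exact (mul_inv_eq_iff_eq_mul.1 h10).symm
        have h12 := Subgroup.orderOf_dvd_natCard _ h11
        rw [cen3 h hq2] at h12
        have h13 := Subgroup.orderOf_dvd_natCard _ (a : (P : Subgroup G)).2
        rw [sy2 h] at h13
        have h14 := Nat.dvd_gcd h12 h13
        rw [← orderOf_eq_one_iff]
        exact Nat.dvd_one.1 h14
      intro a b
      exact Subtype.ext (Subtype.ext ((key a).trans (key b).symm))
    unfold Nat.ModEq at h7
    interval_cases hc : Nat.card (fixedPoints (zpowers q) (P : Subgroup G)) <;> omega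
  interval_cases hc : Nat.card (Sylow 2 G) <;> omega

theorem norm2 (P : Sylow 2 G) : normalizer ((P : Subgroup G) : Set G) = (P : Subgroup G) := by
  haveI : Fact (Nat.Prime 2) := ⟨by norm_num⟩
  have h1 := syl_index P
  have h2 := (normalizer ((P : Subgroup G) : Set G)).index_mul_card
  rw [← h1, card_syl2 h, h] at h2
  symm
  apply eq_of_le_of_card_ge le_normalizer
  rw [sy2 h]
  omega

theorem nonab (P : Sylow 2 G) : ¬ ∀ a ∈ (P : Subgroup G), ∀ b ∈ (P : Subgroup G), a * b = b * a := by
  haveI : Fact (Nat.Prime 2) := ⟨by norm_num⟩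
  intro hab
  apply not_burnside P (ne_bot_of h (sy2 h P) (by decide)) (ne_top_of h (sy2 h P) (by decide))
  rw [norm2 h]
  intro x hx
  rw [mem_centralizer_iff]
  intro y hy
  exact hab y hy x hx

theorem exists_syl2 {x : G} (hx : orderOf x ∣ 8) : ∃ P : Sylow 2 G, x ∈ (P : Subgroup G) := by
  haveI : Fact (Nat.Prime 2) := ⟨by norm_num⟩
  obtain ⟨k, -, hk⟩ := (Nat.dvd_prime_pow Nat.prime_two (m := 3)).1 (by simpa using hx)
  have hpg : IsPGroup 2 (zpowers x) := by
    rw [IsPGroup.iff_card]
    exact ⟨k, by rw [Nat.card_zpowers, hk]⟩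
  obtain ⟨Q, hQ⟩ := hpg.exists_le_sylow
  exact ⟨Q, hQ (mem_zpowers x)⟩

/-- action of a Sylow 2-subgroup on a cyclic subgroup of order 4 -/
theorem conj_r (P : Sylow 2 G) {r t : G} (hr : r ∈ (P : Subgroup G)) (ht : t ∈ (P : Subgroup G)) (ho : orderOf r = 4) :
    t * r * t⁻¹ = r ∨ t * r * t⁻¹ = r⁻¹ := by
  have hle : zpowers r ≤ (P : Subgroup G) := by rwa [zpowers_le]
  haveI hn : ((zpowers r).subgroupOf (P : Subgroup G)).Normal := by
    apply Subgroup.normal_of_index_eq_two
    have h1 := ((zpowers r).subgroupOf (P : Subgroup G)).index_mul_card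
    rw [Nat.card_congr (Subgroup.subgroupOfEquivOfLe hle).toEquiv, Nat.card_zpowers, ho, sy2 h] at h1
    omega
  have h1 : t * r * t⁻¹ ∈ zpowers r := by
    have := hn.conj_mem ⟨r, hr⟩ (mem_subgroupOf.2 (mem_zpowers r)) ⟨t, ht⟩
    exact mem_subgroupOf.1 this
  rw [← mem_powers_iff_mem_zpowers, Submonoid.mem_powers_iff] at h1
  obtain ⟨k, hk⟩ := h1
  rw [← pow_mod_orderOf, ho] at hk
  have hk4 : k % 4 < 4 := Nat.mod_lt _ (by norm_num)
  have h4 : r ^ 4 = 1 := by rw [← ho, pow_orderOf_eq_one]
  have ho' : orderOf (t * r * t⁻¹) = 4 := by rw [ord_conj, ho]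
  interval_cases hh : k % 4
  · exfalso
    rw [← hk, pow_zero, orderOf_one] at ho'
    omega
  · left
    rw [← hk, pow_one]
  · exfalso
    have h5 : (t * r * t⁻¹) ^ 2 = 1 := by rw [← hk, ← pow_mul, h4]
    have := orderOf_dvd_of_pow_eq_one h5
    rw [ho'] at this
    omega
  · right
    rw [← hk, eq_inv_iff_mul_eq_one, ← pow_succ]
    exact h4

/-- the centralizer of a central involution of a Sylow subgroup -/
theorem cen_z (P : Sylow 2 G) {z : G} (hz : z ∈ (P : Subgroup G)) (hz2 : orderOf z = 2) (hc : ∀ t ∈ (P : Subgroup G), t * z = z * t) :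
    centralizer ({z} : Set G) = (P : Subgroup G) := by
  symm
  apply eq_of_le_of_card_ge
  · intro t ht
    rw [mem_centralizer_singleton_iff]
    exact hc t ht
  · rw [sy2 h]
    exact Nat.le_of_dvd (by norm_num) (cen_two_dvd h hz2)

theorem sq_ord {r : G} (ho : orderOf r = 4) : orderOf (r ^ 2) = 2 := by
  rw [orderOf_pow' r (by norm_num), ho]; rfl

theorem sq_cen (P : Sylow 2 G) {r : G} (hr : r ∈ (P : Subgroup G)) (ho : orderOf r = 4) {t : G} (ht : t ∈ (P : Subgroup G)) :
    t * r ^ 2 = r ^ 2 * t := by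
  have h1 : t * r ^ 2 * t⁻¹ = (t * r * t⁻¹) ^ 2 := by rw [conj_pow]
  have h4 : r ^ 4 = 1 := by rw [← ho, pow_orderOf_eq_one]
  have h2 : (t * r * t⁻¹) ^ 2 = r ^ 2 := by
    rcases conj_r h P hr ht ho with h3 | h3
    · rw [h3]
    · rw [h3, inv_pow, inv_eq_iff_mul_eq_one, ← pow_add]
      exact h4
  rw [h2] at h1
  exact mul_inv_eq_iff_eq_mul.1 h1

theorem cen_sq (P : Sylow 2 G) {r : G} (hr : r ∈ (P : Subgroup G)) (ho : orderOf r = 4) :
    centralizer ({r ^ 2} : Set G) = (P : Subgroup G) :=
  cen_z h P (pow_mem hr 2) (sq_ord h ho) (fun t ht => sq_cen h P hr ho ht)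

theorem cen4 {r : G} (ho : orderOf r = 4) : Nat.card (centralizer ({r} : Set G)) = 4 := by
  obtain ⟨P, hr⟩ := exists_syl2 h (x := r) (by rw [ho]; decide)
  have h1 : centralizer ({r} : Set G) ≤ (P : Subgroup G) := by
    rw [← cen_sq h P hr ho]
    intro g hg
    rw [mem_centralizer_singleton_iff] at hg ⊢
    exact (show Commute g r from hg).pow_right 2
  have h2 : zpowers r ≤ centralizer ({r} : Set G) := by
    rw [zpowers_le, mem_centralizer_singleton_iff]
  have h3 := card_dvd_of_le h1
  have h4 := card_dvd_of_le h2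
  rw [sy2 h] at h3
  rw [Nat.card_zpowers, ho] at h4
  have h5 : Nat.card (centralizer ({r} : Set G)) ≠ 8 := by
    intro h6
    have h7 : centralizer ({r} : Set G) = (P : Subgroup G) := eq_of_le_of_card_ge h1 (by rw [sy2 h, h6])
    apply nonab h P
    intro a ha b hb
    by_cases haz : a ∈ zpowers r
    · obtain ⟨k, rfl⟩ := haz
      have : b ∈ centralizer ({r} : Set G) := by rw [h7]; exact hb
      rw [mem_centralizer_singleton_iff] at this
      exact ((show Commute b r from this).zpow_right k).symm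
    · have h8 : zpowers r ≤ centralizer ({a} : Set G) ⊓ (P : Subgroup G) := by
        rw [zpowers_le]
        refine ⟨?_, hr⟩
        have : a ∈ centralizer ({r} : Set G) := by rw [h7]; exact ha
        rw [mem_centralizer_singleton_iff] at this
        show r ∈ centralizer ({a} : Set G)
        rw [mem_centralizer_singleton_iff]
        exact this.symm
      have h9 : a ∈ centralizer ({a} : Set G) ⊓ (P : Subgroup G) := ⟨mem_centralizer_singleton_iff.2 rfl, ha⟩
      have h10 := card_dvd_of_le h8
      have h11 := card_dvd_of_le (inf_le_right : centralizer ({a} : Set G) ⊓ (P : Subgroup G) ≤ (P : Subgroup G))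
      rw [Nat.card_zpowers, ho] at h10
      rw [sy2 h] at h11
      have h12 : Nat.card (centralizer ({a} : Set G) ⊓ (P : Subgroup G) : Subgroup G) ≠ 4 := by
        intro h13
        apply haz
        have : zpowers r = centralizer ({a} : Set G) ⊓ (P : Subgroup G) := eq_of_le_of_card_ge h8 (by rw [h13, Nat.card_zpowers, ho])
        rw [this]; exact h9
      have h14 : Nat.card (centralizer ({a} : Set G) ⊓ (P : Subgroup G) : Subgroup G) = 8 := by
        have := Nat.le_of_dvd (by norm_num) h11
        obtain ⟨k, hk⟩ := h10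
        rw [hk] at this h12 h11 ⊢
        have : k ≤ 2 := by omega
        interval_cases k <;> omega
      have h15 : centralizer ({a} : Set G) ⊓ (P : Subgroup G) = (P : Subgroup G) := eq_of_le_of_card_ge inf_le_right (by rw [sy2 h, h14])
      have h16 : b ∈ centralizer ({a} : Set G) ⊓ (P : Subgroup G) := by rw [h15]; exact hb
      have h17 := mem_centralizer_singleton_iff.1 h16.1
      exact h17.symm
  have := Nat.le_of_dvd (by norm_num) h3
  obtain ⟨k, hk⟩ := h4
  rw [hk] at this h5 h3 ⊢
  have : k ≤ 2 := by omega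
  interval_cases k <;> omega

theorem no8 {x : G} : orderOf x ≠ 8 := by
  intro hx
  obtain ⟨P, hP⟩ := exists_syl2 h (x := x) (by rw [hx])
  have h1 : zpowers x = (P : Subgroup G) := by
    apply eq_of_le_of_card_ge
    · rwa [zpowers_le]
    · rw [sy2 h, Nat.card_zpowers, hx]
  apply nonab h P
  rw [← h1]
  rintro a ⟨i, rfl⟩ b ⟨j, rfl⟩
  exact (Commute.refl x).zpow_zpow i j

theorem orders (g : G) : orderOf g = 1 ∨ orderOf g = 2 ∨ orderOf g = 3 ∨ orderOf g = 4 ∨ orderOf g = 7 := by
  rcases ord_cases h g with h1 | h1 | h1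
  · have h2 := Nat.le_of_dvd (by norm_num) h1
    have h3 := no8 h (x := g)
    have h0 : 0 < orderOf g := orderOf_pos g
    interval_cases hc : orderOf g <;> omega
  · omega
  · omega

theorem exists_r (P : Sylow 2 G) : ∃ r ∈ (P : Subgroup G), orderOf r = 4 := by
  by_contra hcon
  push Not at hcon
  apply nonab h P
  have key : ∀ t ∈ (P : Subgroup G), t * t = 1 := by
    intro t ht
    have h1 := Subgroup.orderOf_dvd_natCard _ ht
    rw [sy2 h] at h1
    have h2 : orderOf t ∣ 2 := by
      rcases orders h t with h3 | h3 | h3 | h3 | h3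
      · rw [h3]; decide
      · rw [h3]
      · rw [h3] at h1; omega
      · exact absurd h3 (hcon t ht)
      · rw [h3] at h1; omega
    rw [← pow_two]
    exact orderOf_dvd_iff_pow_eq_one.1 h2
  intro a ha b hb
  have h1 := key _ (mul_mem ha hb)
  have h2 := key a ha
  have h3 := key b hb
  calc a * b = a * b * (a * b) * (b⁻¹ * a⁻¹) := by group
    _ = b⁻¹ * a⁻¹ := by rw [h1, one_mul]
    _ = b * a := by rw [inv_eq_of_mul_eq_one_left h3, inv_eq_of_mul_eq_one_left h2]

/-- the Sylow 2-subgroups are dihedral, given an element outside the cyclic subgroup -/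
theorem gens (P : Sylow 2 G) : ∃ r ∈ (P : Subgroup G), orderOf r = 4 ∧ ∃ s ∈ (P : Subgroup G), s ∉ zpowers r := by
  obtain ⟨r, hr, ho⟩ := exists_r h P
  refine ⟨r, hr, ho, ?_⟩
  by_contra hcon
  push Not at hcon
  have h1 : (P : Subgroup G) ≤ zpowers r := hcon
  have h2 := card_dvd_of_le h1
  rw [sy2 h, Nat.card_zpowers, ho] at h2
  omega

theorem s_inv (P : Sylow 2 G) {r s : G} (hr : r ∈ (P : Subgroup G)) (ho : orderOf r = 4) (hs : s ∈ (P : Subgroup G)) (hsr : s ∉ zpowers r) :
    s * r * s⁻¹ = r⁻¹ := by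
  rcases conj_r h P hr hs ho with h1 | h1
  · exfalso
    apply hsr
    have h2 : zpowers r = centralizer ({r} : Set G) := by
      apply eq_of_le_of_card_ge
      · rw [zpowers_le, mem_centralizer_singleton_iff]
      · rw [cen4 h ho, Nat.card_zpowers, ho]
    rw [h2, mem_centralizer_singleton_iff]
    exact mul_inv_eq_iff_eq_mul.1 h1
  · exact h1

end simple

end CfsgLib.O168
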