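import Mathlib
import Cfsg.Agent.LibO168c

/-! Simple groups of order `168`: counting (seat helper15). -/

set_option autoImplicit false
set_option linter.all false

namespace CfsgLib.O168

open Subgroup MulAction

universe u

theorem card_ne_one {X : Type*} [Finite X] (a : X) : Nat.card {x : X // x ≠ a} = Nat.card X - 1 := by
  classical
  haveI := Fintype.ofFinite X
  rw [Nat.card_eq_fintype_card, Nat.card_eq_fintype_card, Fintype.card_subtype_compl, Fintype.card_subtype_eq]

section gen
variable {G : Type u} [Group G] [Finite G]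

theorem syl_count {p : ℕ} [hp : Fact p.Prime] (hsy : ∀ P : Sylow p G, Nat.card (P : Subgroup G) = p) :
    Nat.card {g : G // orderOf g = p} = Nat.card (Sylow p G) * (p - 1) := by
  classical
  have hex : ∀ g : {g : G // orderOf g = p}, ∃ P : Sylow p G, (P : Subgroup G) = zpowers g.1 := by
    intro g
    have hpg : IsPGroup p (zpowers g.1) := by
      rw [IsPGroup.iff_card]
      exact ⟨1, by rw [Nat.card_zpowers, g.2, pow_one]⟩
    obtain ⟨Q, hQ⟩ := hpg.exists_le_sylow
    refine ⟨Q, ?_⟩
    symm
    apply eq_of_le_of_card_ge hQ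
    rw [hsy Q, Nat.card_zpowers, g.2]
  choose f hf using hex
  haveI := Fintype.ofFinite (Sylow p G)
  rw [← Nat.card_congr (Equiv.sigmaFiberEquiv f), Nat.card_sigma]
  have h1 : ∀ P : Sylow p G, Nat.card {g // f g = P} = p - 1 := by
    intro P
    have h2 : Nat.card {x : (P : Subgroup G) // x ≠ 1} = p - 1 := by rw [card_ne_one, hsy P]
    rw [← h2]
    have hox : ∀ x : {x : (P : Subgroup G) // x ≠ 1}, orderOf (x.1.1 : G) = p := by
      intro x
      have h3 := Subgroup.orderOf_dvd_natCard _ x.1.2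
      rw [hsy P] at h3
      rcases (Nat.dvd_prime hp.out).1 h3 with h4 | h4
      · exact absurd (Subtype.ext (orderOf_eq_one_iff.1 h4)) x.2
      · exact h4
    apply Nat.card_congr
    refine ⟨fun g => ⟨⟨g.1.1, ?_⟩, ?_⟩, fun x => ⟨⟨x.1.1, hox x⟩, ?_⟩, fun g => rfl, fun x => rfl⟩
    · have h5 : (P : Subgroup G) = zpowers g.1.1 := (congrArg (fun Q : Sylow p G => (Q : Subgroup G)) g.2).symm.trans (hf g.1)
      rw [h5]; exact mem_zpowers _
    · intro h3
      have h4 : g.1.1 = 1 := congrArg Subtype.val h3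
      have := g.1.2
      rw [h4, orderOf_one] at this
      exact hp.out.one_lt.ne this
    · apply Sylow.ext
      rw [hf]
      apply eq_of_le_of_card_ge
      · rw [zpowers_le]; exact x.1.2
      · show Nat.card (P : Subgroup G) ≤ Nat.card (zpowers (x.1.1 : G))
        rw [Nat.card_zpowers, hox x, hsy P]
  rw [Finset.sum_congr rfl (fun P _ => h1 P), Finset.sum_const, smul_eq_mul, Finset.card_univ, ← Nat.card_eq_fintype_card]

theorem sum5 {f : G → ℕ} (hf : ∀ g, f g = 1 ∨ f g = 2 ∨ f g = 3 ∨ f g = 4 ∨ f g = 7) :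
    Nat.card {g // f g = 1} + Nat.card {g // f g = 2} + Nat.card {g // f g = 3} + Nat.card {g // f g = 4} + Nat.card {g // f g = 7} = Nat.card G := by
  classical
  haveI := Fintype.ofFinite G
  have h1 := Finset.card_eq_sum_card_fiberwise (f := f) (s := Finset.univ) (t := ({1, 2, 3, 4, 7} : Finset ℕ)) (by
    intro g _
    have := hf g
    simp only [Finset.coe_insert, Finset.coe_singleton, Set.mem_insert_iff, Set.mem_singleton_iff]
    omega)
  rw [Finset.sum_insert (by decide), Finset.sum_insert (by decide), Finset.sum_insert (by decide), Finset.sum_insert (by decide),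
    Finset.sum_singleton] at h1
  have h2 : ∀ d, Nat.card {g // f g = d} = (Finset.univ.filter (fun g => f g = d)).card := by
    intro d
    rw [Nat.card_eq_fintype_card, Fintype.card_subtype]
  rw [h2, h2, h2, h2, h2, Nat.card_eq_fintype_card, ← Finset.card_univ, h1]
  ring

theorem class_le {r : G} {n : ℕ} (ho : orderOf r = n) : Nat.card {z : G // IsConj r z} ≤ Nat.card {g : G // orderOf g = n} := by
  apply Nat.card_le_card_of_injective (fun z : {z : G // IsConj r z} => (⟨z.1, by
    obtain ⟨c, hc⟩ := isConj_iff.1 z.2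
    rw [← hc, ord_conj, ho]⟩ : {g : G // orderOf g = n}))
  intro a b hab
  exact Subtype.ext (congrArg (fun x : {g : G // orderOf g = n} => x.1) hab)

theorem two_classes {r s : G} {n : ℕ} (ho : orderOf r = n) (ho' : orderOf s = n) (hne : ¬ IsConj r s) :
    Nat.card {z : G // IsConj r z} + Nat.card {z : G // IsConj s z} ≤ Nat.card {g : G // orderOf g = n} := by
  rw [← Nat.card_sum]
  have hord : ∀ {r : G}, orderOf r = n → ∀ z : {z : G // IsConj r z}, orderOf z.1 = n := by
    intro r ho z
    obtain ⟨c, hc⟩ := isConj_iff.1 z.2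
    rw [← hc, ord_conj, ho]
  apply Nat.card_le_card_of_injective (fun z : {z : G // IsConj r z} ⊕ {z : G // IsConj s z} =>
    (Sum.elim (fun z => ⟨z.1, hord ho z⟩) (fun z => ⟨z.1, hord ho' z⟩) z : {g : G // orderOf g = n}))
  rintro (a | a) (b | b) hab
  · congr 1
    exact Subtype.ext (congrArg (fun x : {g : G // orderOf g = n} => x.1) hab)
  · exfalso
    have h1 : a.1 = b.1 := congrArg (fun x : {g : G // orderOf g = n} => x.1) hab
    exact hne (a.2.trans (by rw [h1]; exact b.2.symm))
  · exfalso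
    have h1 : a.1 = b.1 := congrArg (fun x : {g : G // orderOf g = n} => x.1) hab
    exact hne (b.2.trans (by rw [← h1]; exact a.2.symm))
  · congr 1
    exact Subtype.ext (congrArg (fun x : {g : G // orderOf g = n} => x.1) hab)

/-- a class of full size is everything -/
theorem class_full {r : G} {n : ℕ} (ho : orderOf r = n) (hc : Nat.card {g : G // orderOf g = n} ≤ Nat.card {z : G // IsConj r z}) {s : G}
    (hs : orderOf s = n) : IsConj r s := by
  by_contra hne
  have h1 := two_classes ho hs hne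
  haveI : Nonempty {z : G // IsConj s z} := ⟨⟨s, IsConj.refl s⟩⟩
  have h2 : 0 < Nat.card {z : G // IsConj s z} := Nat.card_pos
  omega

end gen

section simple
variable {G : Type u} [Group G] [Finite G] [hsimp : IsSimpleGroup G]
variable (h : Nat.card G = 168)
include h

theorem N7 : Nat.card {g : G // orderOf g = 7} = 48 := by
  haveI : Fact (Nat.Prime 7) := ⟨by norm_num⟩
  rw [syl_count (sy7 h), card_syl7 h]

theorem N3 : Nat.card {g : G // orderOf g = 3} = 56 := by
  haveI : Fact (Nat.Prime 3) := ⟨by norm_num⟩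
  rw [syl_count (sy3 h), card_syl3 h]

theorem N24 : Nat.card {g : G // orderOf g = 2} + Nat.card {g : G // orderOf g = 4} = 63 := by
  have h1 := sum5 (f := fun g : G => orderOf g) (orders h)
  have h2 : Nat.card {g : G // orderOf g = 1} = 1 := by
    rw [Nat.card_eq_one_iff_unique]
    refine ⟨⟨fun a b => Subtype.ext ((orderOf_eq_one_iff.1 a.2).trans (orderOf_eq_one_iff.1 b.2).symm)⟩, ⟨⟨1, orderOf_one⟩⟩⟩
  have h3 := N7 h
  have h4 := N3 h
  simp only [h] at h1
  omega

theorem class4 {r : G} (ho : orderOf r = 4) : Nat.card {z : G // IsConj r z} = 42 := by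
  have h1 := card_class r
  rw [cen4 h ho, h] at h1
  omega

theorem conj4 {r s : G} (hr : orderOf r = 4) (hs : orderOf s = 4) : IsConj r s := by
  by_contra hne
  have h1 := two_classes hr hs hne
  rw [class4 h hr, class4 h hs] at h1
  have h2 := N24 h
  omega

theorem exists4 : ∃ r : G, orderOf r = 4 := by
  haveI : Fact (Nat.Prime 2) := ⟨by norm_num⟩
  obtain ⟨P⟩ : Nonempty (Sylow 2 G) := inferInstance
  obtain ⟨r, -, hr⟩ := exists_r h P
  exact ⟨r, hr⟩

theorem N4 : Nat.card {g : G // orderOf g = 4} = 42 := by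
  obtain ⟨r, hr⟩ := exists4 h
  rw [← class4 h hr]
  apply Nat.card_congr
  apply Equiv.subtypeEquivRight
  intro g
  constructor
  · intro hg; exact conj4 h hr hg
  · intro hg
    obtain ⟨c, hc⟩ := isConj_iff.1 hg
    rw [← hc, ord_conj, hr]

theorem N2 : Nat.card {g : G // orderOf g = 2} = 21 := by
  have := N24 h
  have := N4 h
  omega

theorem conj2 {s t : G} (hs : orderOf s = 2) (ht : orderOf t = 2) : IsConj s t := by
  obtain ⟨r, hr⟩ := exists4 h
  obtain ⟨P, hP⟩ := exists_syl2 h (x := r) (by rw [hr]; decide)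
  have h1 := card_class (r ^ 2)
  rw [cen_sq h P hP hr, sy2 h, h] at h1
  have key : ∀ t : G, orderOf t = 2 → IsConj (r ^ 2) t := by
    intro t ht
    apply class_full (sq_ord h hr) _ ht
    rw [N2 h]
    omega
  exact (key s hs).symm.trans (key t ht)

theorem conj3 {s t : G} (hs : orderOf s = 3) (ht : orderOf t = 3) : IsConj s t := by
  have h1 := card_class s
  rw [cen3 h hs, h] at h1
  apply class_full hs _ ht
  rw [N3 h]
  omega

theorem class7 {r : G} (ho : orderOf r = 7) : Nat.card {z : G // IsConj r z} = 24 := by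
  have h1 := card_class r
  rw [cen7 h ho, h] at h1
  omega

theorem cen2 {t : G} (ht : orderOf t = 2) : Nat.card (centralizer ({t} : Set G)) = 8 := by
  have h1 := card_class t
  have h2 : Nat.card {z : G // IsConj t z} = 21 := by
    rw [← N2 h]
    apply Nat.card_congr
    apply Equiv.subtypeEquivRight
    intro g
    constructor
    · intro hg
      obtain ⟨c, hc⟩ := isConj_iff.1 hg
      rw [← hc, ord_conj, ht]
    · intro hg; exact conj2 h ht hg
  rw [h2, h] at h1
  omega

theorem norm_zp {H : Subgroup G} {x g : G} (hH : H = zpowers x) (hg : g * x * g⁻¹ ∈ H) : g ∈ normalizer (H : Set G) := by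
  subst hH
  rw [mem_normalizer_iff_map_conj_eq]
  apply eq_of_le_of_card_ge
  · rw [map_le_iff_le_comap, zpowers_le]
    exact hg
  · rw [Subgroup.card_map_of_injective (MulEquiv.injective _)]

theorem not_inv7 {x : G} (hx : orderOf x = 7) : ¬ IsConj x x⁻¹ := by
  haveI : Fact (Nat.Prime 7) := ⟨by norm_num⟩
  intro hc
  obtain ⟨g, hg⟩ := isConj_iff.1 hc
  obtain ⟨Q, hQ⟩ := exists_syl h (sy7 h) (H := zpowers x) (by rw [Nat.card_zpowers, hx])
  have h1 : g ∈ normalizer ((Q : Subgroup G) : Set G) := norm_zp h hQ (by rw [hg, hQ]; exact inv_mem (mem_zpowers x))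
  have h2 := Subgroup.orderOf_dvd_natCard _ h1
  rw [norm7 h] at h2
  -- `g` inverts `x`, so `g ^ 2` centralises; `g` has odd order
  have h3 : g ^ 21 = 1 := orderOf_dvd_iff_pow_eq_one.1 h2
  have hcomm : Commute (g ^ 2) x := by
    have h4 : g ^ 2 * x * (g ^ 2)⁻¹ = x := by
      have : g ^ 2 * x * (g ^ 2)⁻¹ = g * (g * x * g⁻¹) * g⁻¹ := by rw [pow_two]; group
      rw [this, hg]
      have : g * x⁻¹ * g⁻¹ = (g * x * g⁻¹)⁻¹ := by group
      rw [this, hg, inv_inv]
    exact mul_inv_eq_iff_eq_mul.1 h4
  have h5 : Commute g x := by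
    have h6 : g = (g ^ 2) ^ 11 := by
      rw [← pow_mul]
      have : g ^ (2 * 11) = g ^ 21 * g := by rw [← pow_succ]
      rw [this, h3, one_mul]
    rw [h6]
    exact hcomm.pow_left 11
  have h7 : x⁻¹ = x := by rw [← hg, h5.eq]; group
  have h8 : x ^ 2 = 1 := by
    rw [pow_two]
    nth_rw 1 [← h7]
    group
  have := orderOf_dvd_of_pow_eq_one h8
  rw [hx] at this
  omega

/-- elements outside the cyclic subgroup are involutions -/
theorem s_sq (P : Sylow 2 G) {r s : G} (hr : r ∈ (P : Subgroup G)) (ho : orderOf r = 4) (hs : s ∈ (P : Subgroup G)) (hsr : s ∉ zpowers r) :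
    orderOf s = 2 := by
  have h1 := Subgroup.orderOf_dvd_natCard _ hs
  rw [sy2 h] at h1
  rcases orders h s with h2 | h2 | h2 | h2 | h2
  · exfalso
    rw [orderOf_eq_one_iff] at h2
    exact hsr (by rw [h2]; exact one_mem _)
  · exact h2
  · rw [h2] at h1; omega
  · exfalso
    obtain ⟨g, hg⟩ := isConj_iff.1 (conj4 h ho h2)
    have h3 := cen_sq h P hs h2
    have h4 := cen_sq h P hr ho
    have h5 : g ∈ normalizer ((P : Subgroup G) : Set G) := by
      rw [mem_normalizer_iff]
      intro x
      rw [show (g * x * g⁻¹ ∈ (P : Subgroup G)) ↔ g * x * g⁻¹ ∈ centralizer ({s ^ 2} : Set G) by rw [h3],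
        show (x ∈ (P : Subgroup G)) ↔ x ∈ centralizer ({r ^ 2} : Set G) by rw [h4]]
      rw [mem_centralizer_singleton_iff, mem_centralizer_singleton_iff]
      have h7 : s ^ 2 = g * r ^ 2 * g⁻¹ := by rw [← hg, conj_pow]
      rw [h7]
      constructor
      · intro h8
        calc g * x * g⁻¹ * (g * r ^ 2 * g⁻¹) = g * (x * r ^ 2) * g⁻¹ := by group
          _ = g * (r ^ 2 * x) * g⁻¹ := by rw [h8]
          _ = _ := by group
      · intro h8
        have h9 : g * (x * r ^ 2) * g⁻¹ = g * (r ^ 2 * x) * g⁻¹ := by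
          calc g * (x * r ^ 2) * g⁻¹ = g * x * g⁻¹ * (g * r ^ 2 * g⁻¹) := by group
            _ = _ := h8
            _ = _ := by group
        exact mul_left_cancel (mul_right_cancel h9)
    rw [norm2 h] at h5
    rcases conj_r h P hr h5 ho with h6 | h6
    · rw [hg] at h6
      exact hsr (by rw [h6]; exact mem_zpowers r)
    · rw [hg] at h6
      exact hsr (by rw [h6]; exact inv_mem (mem_zpowers r))
  · rw [h2] at h1; omega

theorem d8 (P : Sylow 2 G) : Nonempty ((P : Subgroup G) ≃* DihedralGroup 4) := by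
  obtain ⟨r, hr, ho, s, hs, hsr⟩ := gens h P
  have h1 := s_sq h P hr ho hs hsr
  have h2 := s_inv h P hr ho hs hsr
  have hs2 : s * s = 1 := by rw [← pow_two, ← h1, pow_orderOf_eq_one]
  have hsi : s⁻¹ = s := inv_eq_of_mul_eq_one_left hs2
  rw [hsi] at h2
  apply CfsgLib.Small27.d8_of (G := (P : Subgroup G)) (a := ⟨r, hr⟩) (b := ⟨s, hs⟩) (sy2 h P)
  · intro h3
    have h4 : r * r = 1 := congrArg Subtype.val h3
    rw [← pow_two] at h4
    have := orderOf_dvd_of_pow_eq_one h4
    rw [ho] at this
    omega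
  · apply Subtype.ext
    have h4 : r ^ 4 = 1 := by rw [← ho, pow_orderOf_eq_one]
    change r * r * (r * r) = 1
    rw [← h4]; simp only [pow_succ, pow_zero, one_mul, mul_assoc]
  · exact Subtype.ext hs2
  · exact Subtype.ext h2

end simple

end CfsgLib.O168
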