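import Mathlib
import Cfsg.Agent.LibO168d

/-! Simple groups of order `168`: Klein four-subgroups (seat helper15). -/

set_option autoImplicit false
set_option linter.all false

namespace CfsgLib.O168

open Subgroup MulAction

universe u

section gen
variable {G : Type u} [Group G]

theorem klein_of {U : Subgroup G} (h4 : Nat.card U = 4) (hsq : ∀ g ∈ U, g * g = 1) : IsKleinFour U := by
  refine ⟨h4, ?_⟩
  apply Nat.dvd_antisymm
  · exact Monoid.exponent_dvd_of_forall_pow_eq_one fun g => by
      rw [pow_two]; exact Subtype.ext (hsq g g.2)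
  · have h1 : Monoid.exponent U ≠ 1 := by
      intro he
      rw [Monoid.exp_eq_one_iff] at he
      have := Nat.card_of_subsingleton (1 : U)
      omega
    have h2 : Monoid.exponent U ∣ 2 := Monoid.exponent_dvd_of_forall_pow_eq_one fun g => by
      rw [pow_two]; exact Subtype.ext (hsq g g.2)
    rcases (Nat.dvd_prime Nat.prime_two).1 h2 with h3 | h3
    · exact absurd h3 h1
    · rw [h3]

theorem klein_sq {U : Subgroup G} (hU : IsKleinFour U) {g : G} (hg : g ∈ U) : g * g = 1 := by
  have h1 : (⟨g, hg⟩ : U) ^ 2 = 1 := by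
    rw [← hU.exponent_two]
    exact Monoid.pow_exponent_eq_one _
  rw [pow_two] at h1
  exact congrArg Subtype.val h1

theorem sq_comm {U : Subgroup G} (hsq : ∀ g ∈ U, g * g = 1) {a b : G} (ha : a ∈ U) (hb : b ∈ U) : a * b = b * a := by
  have h1 := hsq _ (mul_mem ha hb)
  have h2 := hsq a ha
  have h3 := hsq b hb
  calc a * b = a * b * (a * b) * (b⁻¹ * a⁻¹) := by group
    _ = b⁻¹ * a⁻¹ := by rw [h1, one_mul]
    _ = b * a := by rw [inv_eq_of_mul_eq_one_left h3, inv_eq_of_mul_eq_one_left h2]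

theorem le_norm_idx [Finite G] {U K : Subgroup G} (hle : U ≤ K) (hU : Nat.card U = 4) (hK : Nat.card K = 8) : K ≤ normalizer (U : Set G) := by
  haveI hn : (U.subgroupOf K).Normal := by
    apply Subgroup.normal_of_index_eq_two
    have h1 := (U.subgroupOf K).index_mul_card
    rw [Nat.card_congr (Subgroup.subgroupOfEquivOfLe hle).toEquiv, hU, hK] at h1
    omega
  exact normal_subgroupOf_iff_le_normalizer hle |>.1 hn

/-- a `2`-subgroup normalised by a Sylow subgroup lies in it -/
theorem le_syl {p : ℕ} [hp : Fact p.Prime] [Finite G] (P : Sylow p G) {W : Subgroup G} {n : ℕ} (hW : Nat.card W = p ^ n)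
    (hPW : (P : Subgroup G) ≤ normalizer (W : Set G)) : W ≤ (P : Subgroup G) := by
  have h1 : IsPGroup p ((P : Subgroup G) ⊔ W : Subgroup G) :=
    P.isPGroup'.to_sup_of_normal_right' (by rw [IsPGroup.iff_card]; exact ⟨n, hW⟩) hPW
  have h2 := P.is_maximal' h1 le_sup_left
  rw [← h2]
  exact le_sup_right

end gen

section simple
variable {G : Type u} [Group G] [Finite G] [hsimp : IsSimpleGroup G]
variable (h : Nat.card G = 168)
include h

theorem mk_syl2 {H : Subgroup G} (hH : Nat.card H = 8) : ∃ Q : Sylow 2 G, (Q : Subgroup G) = H := by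
  haveI : Fact (Nat.Prime 2) := ⟨by norm_num⟩
  have hpg : IsPGroup 2 H := by
    rw [IsPGroup.iff_card]
    exact ⟨3, by rw [hH]; rfl⟩
  obtain ⟨Q, hQ⟩ := hpg.exists_le_sylow
  refine ⟨Q, ?_⟩
  symm
  apply eq_of_le_of_card_ge hQ
  rw [sy2 h, hH]

theorem le_some_syl2 {H : Subgroup G} {n : ℕ} (hH : Nat.card H = 2 ^ n) : ∃ Q : Sylow 2 G, H ≤ (Q : Subgroup G) := by
  haveI : Fact (Nat.Prime 2) := ⟨by norm_num⟩
  have hpg : IsPGroup 2 H := by
    rw [IsPGroup.iff_card]
    exact ⟨n, hH⟩
  exact hpg.exists_le_sylow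

theorem ord2_of {t : G} (h1 : t ≠ 1) (h2 : t * t = 1) : orderOf t = 2 :=
  orderOf_eq_prime (by rw [pow_two]; exact h2) h1

/-- a subgroup of order 24 from two Sylow subgroups -/
theorem card24 {K : Subgroup G} (hK : K ≠ ⊤) {P Q : Subgroup G} (hP : Nat.card P = 8) (hQ : Nat.card Q = 8) (hPQ : P ≠ Q)
    (hPK : P ≤ K) (hQK : Q ≤ K) : Nat.card K = 24 := by
  have h1 := card_dvd_of_le hPK
  rw [hP] at h1
  have h2 := K.index_mul_card
  have h3 : Nat.card K ≠ 8 := by
    intro h4
    apply hPQ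
    rw [eq_of_le_of_card_ge hPK (by rw [h4, hP]), eq_of_le_of_card_ge hQK (by rw [h4, hQ])]
  have h4 := dvd_fact K hK
  rw [h] at h2 h4
  obtain ⟨k, hk⟩ := h1
  rw [hk] at h2 h3 ⊢
  have h5 : K.index * k = 21 := by
    have : 8 * (K.index * k) = 8 * 21 := by rw [← Nat.mul_assoc, Nat.mul_comm 8, Nat.mul_assoc]; omega
    omega
  have h6 : K.index ∣ 21 := ⟨k, h5.symm⟩
  have h7 := Nat.le_of_dvd (by norm_num) h6
  have h8 : K.index ≠ 21 := by
    intro h9
    rw [h9] at h5
    have : k = 1 := by omega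
    omega
  have h10 : K.index ≠ 1 := by
    intro h9
    exact hK (index_eq_one.1 h9)
  have h11 : K.index ≠ 3 := by
    intro h9
    rw [h9] at h4
    revert h4; decide
  have h0 : K.index ≠ 0 := by
    intro h9
    rw [h9] at h5
    omega
  have h12 : K.index = 7 := by
    revert h6 h7 h8 h10 h11 h0
    generalize K.index = i
    intro h6 h7 h8 h10 h11 h0
    interval_cases i <;> omega
  rw [h12] at h5
  omega

theorem norm_ne_top {U : Subgroup G} {n : ℕ} (hU : Nat.card U = n) (h1 : n ≠ 1) (h2 : n ≠ 168) : normalizer (U : Set G) ≠ ⊤ := by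
  intro h3
  have h4 : U.Normal := normalizer_eq_top_iff.1 h3
  rcases h4.eq_bot_or_eq_top with h5 | h5
  · exact ne_bot_of h hU h1 h5
  · exact ne_top_of h hU h2 h5

/-- a Klein four-subgroup of a Sylow subgroup is the centraliser of a noncentral involution -/
theorem klein_data (P : Sylow 2 G) {r : G} (hr : r ∈ (P : Subgroup G)) (ho : orderOf r = 4) {U : Subgroup G} (hUP : U ≤ (P : Subgroup G))
    (hU : IsKleinFour U) : ∃ s ∈ U, s ∉ zpowers r := by
  by_contra hcon
  push Not at hcon
  have h1 : U = zpowers r := by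
    apply eq_of_le_of_card_ge hcon
    rw [Nat.card_zpowers, ho, hU.card_four]
  have h2 : r ∈ U := by rw [h1]; exact mem_zpowers r
  have h3 := klein_sq hU h2
  rw [← pow_two] at h3
  have := orderOf_dvd_of_pow_eq_one h3
  rw [ho] at this
  omega

theorem not_comm_s (P : Sylow 2 G) {r s : G} (hr : r ∈ (P : Subgroup G)) (ho : orderOf r = 4) (hs : s ∈ (P : Subgroup G)) (hsr : s ∉ zpowers r) :
    r * s ≠ s * r := by
  intro h1
  have h2 := s_inv h P hr ho hs hsr
  rw [← h1] at h2
  have h3 : r = r⁻¹ := by simpa using h2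
  have h4 : r * r = 1 := by
    nth_rw 2 [h3]
    exact mul_inv_cancel r
  rw [← pow_two] at h4
  have := orderOf_dvd_of_pow_eq_one h4
  rw [ho] at this
  omega

theorem card_VS (P : Sylow 2 G) {r s : G} (hr : r ∈ (P : Subgroup G)) (ho : orderOf r = 4) (hs : s ∈ (P : Subgroup G)) (hsr : s ∉ zpowers r) :
    Nat.card (centralizer ({s} : Set G) ⊓ (P : Subgroup G) : Subgroup G) = 4 := by
  have h1 := card_dvd_of_le (inf_le_right : centralizer ({s} : Set G) ⊓ (P : Subgroup G) ≤ (P : Subgroup G))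
  rw [sy2 h] at h1
  have hs2 := s_sq h P hr ho hs hsr
  have h2 : zpowers s ≤ centralizer ({s} : Set G) ⊓ (P : Subgroup G) := by
    rw [zpowers_le]
    exact ⟨mem_centralizer_singleton_iff.2 rfl, hs⟩
  have h3 := card_dvd_of_le h2
  rw [Nat.card_zpowers, hs2] at h3
  have h4 : Nat.card (centralizer ({s} : Set G) ⊓ (P : Subgroup G) : Subgroup G) ≠ 8 := by
    intro h5
    have h6 : centralizer ({s} : Set G) ⊓ (P : Subgroup G) = (P : Subgroup G) := eq_of_le_of_card_ge inf_le_right (by rw [sy2 h, h5])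
    have h7 : r ∈ centralizer ({s} : Set G) ⊓ (P : Subgroup G) := by rw [h6]; exact hr
    exact not_comm_s h P hr ho hs hsr (mem_centralizer_singleton_iff.1 h7.1)
  have h5 : Nat.card (centralizer ({s} : Set G) ⊓ (P : Subgroup G) : Subgroup G) ≠ 2 := by
    intro h5
    have h6 : zpowers s = centralizer ({s} : Set G) ⊓ (P : Subgroup G) := eq_of_le_of_card_ge h2 (by rw [h5, Nat.card_zpowers, hs2])
    have h7 : r ^ 2 ∈ centralizer ({s} : Set G) ⊓ (P : Subgroup G) := by
      refine ⟨?_, pow_mem hr 2⟩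
      show r ^ 2 ∈ centralizer ({s} : Set G)
      rw [mem_centralizer_singleton_iff]
      exact (sq_cen h P hr ho hs).symm
    rcases of_two h5 (k := s) ⟨mem_centralizer_singleton_iff.2 rfl, hs⟩ (by
      rintro rfl
      exact hsr (one_mem _)) h7 with h8 | h8
    · have := sq_ord h ho
      rw [h8, orderOf_one] at this
      omega
    · exact hsr (by rw [← h8]; exact pow_mem (mem_zpowers r) 2)
  have h6 := Nat.le_of_dvd (by norm_num) h1
  revert h1 h3 h4 h5 h6
  generalize Nat.card (centralizer ({s} : Set G) ⊓ (P : Subgroup G) : Subgroup G) = n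
  intro h1 h3 h4 h5 h6
  interval_cases n <;> omega

theorem klein_eq (P : Sylow 2 G) {r s : G} (hr : r ∈ (P : Subgroup G)) (ho : orderOf r = 4) {U : Subgroup G} (hUP : U ≤ (P : Subgroup G))
    (hU : IsKleinFour U) (hs : s ∈ U) (hsr : s ∉ zpowers r) : U = centralizer ({s} : Set G) ⊓ (P : Subgroup G) := by
  apply eq_of_le_of_card_ge
  · intro x hx
    refine ⟨?_, hUP hx⟩
    show x ∈ centralizer ({s} : Set G)
    rw [mem_centralizer_singleton_iff]
    exact sq_comm (fun g hg => klein_sq hU hg) hx hs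
  · rw [card_VS h P hr ho (hUP hs) hsr, hU.card_four]

theorem klein_VS (P : Sylow 2 G) {r s : G} (hr : r ∈ (P : Subgroup G)) (ho : orderOf r = 4) (hs : s ∈ (P : Subgroup G)) (hsr : s ∉ zpowers r) :
    IsKleinFour (centralizer ({s} : Set G) ⊓ (P : Subgroup G) : Subgroup G) := by
  apply klein_of (card_VS h P hr ho hs hsr)
  intro x hx
  have h1 := Subgroup.orderOf_dvd_natCard _ hx
  rw [card_VS h P hr ho hs hsr] at h1
  have h2 : orderOf x ∣ 2 := by
    have h3 := Nat.le_of_dvd (by norm_num) h1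
    have h4 : orderOf x ≠ 4 := by
      intro h5
      have h6 : zpowers x = centralizer ({x} : Set G) := by
        apply eq_of_le_of_card_ge
        · rw [zpowers_le, mem_centralizer_singleton_iff]
        · rw [cen4 h h5, Nat.card_zpowers, h5]
      have h7 : s ∈ zpowers x := by
        rw [h6, mem_centralizer_singleton_iff]
        exact (mem_centralizer_singleton_iff.1 hx.1).symm
      have h8 : x ∉ zpowers r := by
        intro h9
        apply hsr
        exact (show zpowers x ≤ zpowers r by rwa [zpowers_le]) h7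
      have h10 := s_sq h P hr ho hx.2 h8
      omega
    have h0 : 0 < orderOf x := orderOf_pos x
    interval_cases hc : orderOf x <;> omega
  rw [← pow_two]
  exact orderOf_dvd_iff_pow_eq_one.1 h2

/-- two Sylow subgroups normalising a Klein four-subgroup -/
theorem klein_two {U : Subgroup G} (hU : IsKleinFour U) : ∃ P Q : Sylow 2 G, P ≠ Q ∧ U ≤ (P : Subgroup G) ∧ U ≤ (Q : Subgroup G) ∧
    (P : Subgroup G) ≤ normalizer (U : Set G) ∧ (Q : Subgroup G) ≤ normalizer (U : Set G) := by
  obtain ⟨P, hP⟩ := le_some_syl2 h (H := U) (n := 2) (by rw [hU.card_four]; rfl)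
  obtain ⟨r, hr, ho⟩ := exists_r h P
  obtain ⟨s, hs, hsr⟩ := klein_data h P hr ho hP hU
  have hs2 := s_sq h P hr ho (hP hs) hsr
  obtain ⟨Q, hQ⟩ := mk_syl2 h (cen2 h hs2)
  have hUQ : U ≤ (Q : Subgroup G) := by
    rw [hQ, klein_eq h P hr ho hP hU hs hsr]
    exact inf_le_left
  refine ⟨P, Q, ?_, hP, hUQ, le_norm_idx hP hU.card_four (sy2 h P), le_norm_idx hUQ hU.card_four (sy2 h Q)⟩
  rintro rfl
  rw [hQ, mem_centralizer_singleton_iff] at hr
  obtain ⟨P', hP'⟩ := mk_syl2 h (cen2 h hs2)
  have hr' : r ∈ (P' : Subgroup G) := by rw [hP', mem_centralizer_singleton_iff]; exact hr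
  have hs' : s ∈ (P' : Subgroup G) := by rw [hP', mem_centralizer_singleton_iff]
  exact not_comm_s h P' hr' ho hs' hsr hr

theorem card_NU {U : Subgroup G} (hU : IsKleinFour U) : Nat.card (normalizer (U : Set G)) = 24 := by
  obtain ⟨P, Q, hPQ, -, -, h3, h4⟩ := klein_two h hU
  exact card24 h (norm_ne_top h hU.card_four (by decide) (by decide)) (sy2 h P) (sy2 h Q) (fun h5 => hPQ (Sylow.ext h5)) h3 h4

theorem s4_of_24 {K : Subgroup G} (hK : Nat.card K = 24) : Nonempty (K ≃* Equiv.Perm (Fin 4)) := by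
  apply iso_s4 hK
  intro g hg
  rw [← Subgroup.orderOf_coe] at hg
  rcases orders h (g : G) with h1 | h1 | h1 | h1 | h1 <;> omega

theorem s4_NU {U : Subgroup G} (hU : IsKleinFour U) : Nonempty (normalizer (U : Set G) ≃* Equiv.Perm (Fin 4)) :=
  s4_of_24 h (card_NU h hU)

/-- Klein four-subgroups are determined by their normalisers -/
theorem klein_inj {U W : Subgroup G} (hU : IsKleinFour U) (hW : Nat.card W = 4) (hN : normalizer (U : Set G) ≤ normalizer (W : Set G)) : W = U := by
  haveI : Fact (Nat.Prime 2) := ⟨by norm_num⟩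
  obtain ⟨P, Q, hPQ, h1, h2, h3, h4⟩ := klein_two h hU
  have h5 : U ≤ (P : Subgroup G) ⊓ (Q : Subgroup G) := le_inf h1 h2
  have h6 : W ≤ (P : Subgroup G) ⊓ (Q : Subgroup G) :=
    le_inf (le_syl P (n := 2) (by rw [hW]; rfl) (h3.trans hN)) (le_syl Q (n := 2) (by rw [hW]; rfl) (h4.trans hN))
  have h7 : Nat.card ((P : Subgroup G) ⊓ (Q : Subgroup G) : Subgroup G) = 4 := by
    have h8 := card_dvd_of_le h5
    rw [hU.card_four] at h8
    have h9 := card_dvd_of_le (inf_le_left : (P : Subgroup G) ⊓ (Q : Subgroup G) ≤ (P : Subgroup G))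
    rw [sy2 h] at h9
    have h10 : Nat.card ((P : Subgroup G) ⊓ (Q : Subgroup G) : Subgroup G) ≠ 8 := by
      intro h11
      have e1 := eq_of_le_of_card_ge (inf_le_left : (P : Subgroup G) ⊓ (Q : Subgroup G) ≤ (P : Subgroup G)) (by rw [h11, sy2 h])
      have e2 := eq_of_le_of_card_ge (inf_le_right : (P : Subgroup G) ⊓ (Q : Subgroup G) ≤ (Q : Subgroup G)) (by rw [h11, sy2 h])
      exact hPQ (Sylow.ext (e1.symm.trans e2))
    have h11 := Nat.le_of_dvd (by norm_num) h9
    revert h8 h9 h10 h11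
    generalize Nat.card ((P : Subgroup G) ⊓ (Q : Subgroup G) : Subgroup G) = n
    intro h8 h9 h10 h11
    interval_cases n <;> omega
  rw [eq_of_le_of_card_ge h6 (by rw [h7, hW]), eq_of_le_of_card_ge h5 (by rw [h7, hU.card_four])]

theorem map_norm (U : Subgroup G) (g : G) : normalizer ((U.map (MulAut.conj g).toMonoidHom : Subgroup G) : Set G) =
    (normalizer (U : Set G)).map (MulAut.conj g).toMonoidHom := (map_equiv_normalizer_eq U (MulAut.conj g)).symm

/-- Klein four-subgroups of the same Sylow subgroup which are conjugate are equal -/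
theorem klein_nonconj (P : Sylow 2 G) {U W : Subgroup G} (hUP : U ≤ (P : Subgroup G)) (hWP : W ≤ (P : Subgroup G))
    (hU : IsKleinFour U) (hW : IsKleinFour W) {g : G} (hg : U.map (MulAut.conj g).toMonoidHom = W) : U = W := by
  haveI : Fact (Nat.Prime 2) := ⟨by norm_num⟩
  have h1 : (P : Subgroup G) ≤ normalizer (W : Set G) := le_norm_idx hWP hW.card_four (sy2 h P)
  have h2 : (P : Subgroup G) ≤ normalizer (U : Set G) := le_norm_idx hUP hU.card_four (sy2 h P)
  have h3 : ((g • P : Sylow 2 G) : Subgroup G) ≤ normalizer (W : Set G) := by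
    rw [← hg, map_norm h]
    exact map_mono h2
  obtain ⟨n, hn⟩ := MulAction.exists_smul_eq (normalizer (W : Set G)) ((g • P).subtype h3) (P.subtype h1)
  have h4 : ((n : G) * g) • P = P := by
    rw [mul_smul]
    have h5 : (n • (g • P)).subtype (by
        intro x hx
        obtain ⟨y, hy, rfl⟩ := hx
        exact mul_mem (mul_mem n.2 (h3 hy)) (inv_mem n.2)) = P.subtype h1 := by
      rw [← hn]
      apply Sylow.ext
      ext x
      simp only [Sylow.coe_subtype, Sylow.coe_subgroup_smul]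
      constructor
      · rintro ⟨y, hy, hyx⟩
        refine ⟨⟨y, h3 hy⟩, hy, ?_⟩
        apply Subtype.ext
        exact hyx
      · rintro ⟨y, hy, hyx⟩
        exact ⟨y.1, hy, congrArg Subtype.val hyx⟩
    exact Sylow.subtype_injective h5
  have h6 : (n : G) * g ∈ normalizer ((P : Subgroup G) : Set G) := Sylow.smul_eq_iff_mem_normalizer.1 h4
  rw [norm2 h] at h6
  have h7 := mem_normalizer_iff_map_conj_eq.1 (h2 h6)
  have h8 := mem_normalizer_iff_map_conj_eq.1 n.2
  calc U = U.map (MulAut.conj ((n : G) * g)).toMonoidHom := h7.symm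
    _ = (U.map (MulAut.conj g).toMonoidHom).map (MulAut.conj (n : G)).toMonoidHom := by
        rw [map_map]
        congr 1
        ext x
        simp [mul_assoc]
    _ = W.map (MulAut.conj (n : G)).toMonoidHom := by rw [hg]
    _ = W := h8

end simple

end CfsgLib.O168
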