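import Mathlib
import Cfsg.Agent.LibO168e

/-! Simple groups of order `168`: Klein four-subgroups, counting (seat helper15). -/

set_option autoImplicit false
set_option linter.all false

namespace CfsgLib.O168

open Subgroup MulAction

universe u

section simple
variable {G : Type u} [Group G] [Finite G] [hsimp : IsSimpleGroup G]
variable (h : Nat.card G = 168)
include h

theorem VS_shift (P : Sylow 2 G) {r w : G} (hr : r ∈ (P : Subgroup G)) (ho : orderOf r = 4) :
    centralizer ({r ^ 2 * w} : Set G) ⊓ (P : Subgroup G) = centralizer ({w} : Set G) ⊓ (P : Subgroup G) := by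
  ext x
  rw [mem_inf, mem_inf, mem_centralizer_singleton_iff, mem_centralizer_singleton_iff]
  constructor
  · rintro ⟨h1, h2⟩
    refine ⟨?_, h2⟩
    have h3 := sq_cen h P hr ho h2
    rw [← mul_assoc, h3, mul_assoc, mul_assoc] at h1
    exact mul_left_cancel h1
  · rintro ⟨h1, h2⟩
    refine ⟨?_, h2⟩
    have h3 := sq_cen h P hr ho h2
    rw [← mul_assoc, h3, mul_assoc, h1, mul_assoc]

theorem outside (P : Sylow 2 G) {r s t : G} (hr : r ∈ (P : Subgroup G)) (ho : orderOf r = 4) (hs : s ∈ (P : Subgroup G)) (hsr : s ∉ zpowers r)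
    (ht : t ∈ (P : Subgroup G)) (htr : t ∉ zpowers r) : t = s ∨ t = r * s ∨ t = r ^ 2 * s ∨ t = r ^ 2 * (r * s) := by
  have hle : zpowers r ≤ (P : Subgroup G) := by rwa [zpowers_le]
  have h1 : ((zpowers r).subgroupOf (P : Subgroup G)).index = 2 := by
    have h1 := ((zpowers r).subgroupOf (P : Subgroup G)).index_mul_card
    rw [Nat.card_congr (Subgroup.subgroupOfEquivOfLe hle).toEquiv, Nat.card_zpowers, ho, sy2 h] at h1
    omega
  have h2 : t * s⁻¹ ∈ zpowers r := by
    have h3 := (mul_mem_iff_of_index_two h1 (a := ⟨t, ht⟩) (b := ⟨s⁻¹, inv_mem hs⟩)).2 (by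
      rw [mem_subgroupOf, mem_subgroupOf]
      constructor
      · intro h4; exact absurd h4 htr
      · intro h4; exact absurd ((inv_mem_iff).1 h4) hsr)
    exact mem_subgroupOf.1 h3
  rw [← mem_powers_iff_mem_zpowers, Submonoid.mem_powers_iff] at h2
  obtain ⟨k, hk⟩ := h2
  rw [← pow_mod_orderOf, ho] at hk
  have hk4 : k % 4 < 4 := Nat.mod_lt _ (by norm_num)
  have h5 : t = r ^ (k % 4) * s := by rw [hk]; group
  interval_cases hh : k % 4
  · left; rw [h5, pow_zero, one_mul]
  · right; left; rw [h5, pow_one]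
  · right; right; left; exact h5
  · right; right; right; rw [h5, pow_succ, mul_assoc]

theorem rs_out {r s : G} (hsr : s ∉ zpowers r) : r * s ∉ zpowers r := by
  intro h1
  exact hsr ((mul_mem_cancel_left (mem_zpowers r)).1 h1)

/-- the Klein four-subgroups of a Sylow 2-subgroup -/
theorem kleins (P : Sylow 2 G) : ∃ V1 V2 : Subgroup G, V1 ≠ V2 ∧ V1 ≤ (P : Subgroup G) ∧ V2 ≤ (P : Subgroup G) ∧ IsKleinFour V1 ∧ IsKleinFour V2 ∧
    ∀ U : Subgroup G, U ≤ (P : Subgroup G) → IsKleinFour U → U = V1 ∨ U = V2 := by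
  obtain ⟨r, hr, ho, s, hs, hsr⟩ := gens h P
  refine ⟨centralizer ({s} : Set G) ⊓ (P : Subgroup G), centralizer ({r * s} : Set G) ⊓ (P : Subgroup G), ?_, inf_le_right, inf_le_right,
    klein_VS h P hr ho hs hsr, klein_VS h P hr ho (mul_mem hr hs) (rs_out h hsr), ?_⟩
  · intro h1
    have h2 : s ∈ centralizer ({s} : Set G) ⊓ (P : Subgroup G) := ⟨mem_centralizer_singleton_iff.2 rfl, hs⟩
    rw [h1] at h2
    have h3 := mem_centralizer_singleton_iff.1 h2.1
    rw [← mul_assoc] at h3
    exact not_comm_s h P hr ho hs hsr (mul_right_cancel h3).symm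
  · intro U hUP hU
    obtain ⟨t, ht, htr⟩ := klein_data h P hr ho hUP hU
    rw [klein_eq h P hr ho hUP hU ht htr]
    rcases outside h P hr ho hs hsr (hUP ht) htr with h1 | h1 | h1 | h1
    · left; rw [h1]
    · right; rw [h1]
    · left; rw [h1, VS_shift h P hr ho]
    · right; rw [h1, VS_shift h P hr ho]

theorem card_kleins (P : Sylow 2 G) : Nat.card {U : Subgroup G // U ≤ (P : Subgroup G) ∧ IsKleinFour U} = 2 := by
  obtain ⟨V1, V2, hne, h1, h2, h3, h4, h5⟩ := kleins h P
  rw [Nat.card_eq_two_iff]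
  refine ⟨⟨V1, h1, h3⟩, ⟨V2, h2, h4⟩, ?_, ?_⟩
  · intro h6; exact hne (congrArg Subtype.val h6)
  · rw [Set.eq_univ_iff_forall]
    rintro ⟨U, hU1, hU2⟩
    rcases h5 U hU1 hU2 with h6 | h6
    · left; exact Subtype.ext h6
    · right; exact Subtype.ext h6

end simple

end CfsgLib.O168
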