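import Mathlib
import Cfsg.Agent.LibO168f

/-! Simple groups of order `168`: maximal subgroups (seat helper15). -/

set_option autoImplicit false
set_option linter.all false

namespace CfsgLib.O168

open Subgroup MulAction

universe u

section gen
variable {G : Type u} [Group G] [Finite G]

theorem n3_24 (h : Nat.card G = 24) (h6 : ∀ g : G, orderOf g ≠ 6) : Nat.card (Sylow 3 G) = 4 := by
  haveI : Fact (Nat.Prime 3) := ⟨Nat.prime_three⟩
  haveI : Fact (Nat.Prime 2) := ⟨Nat.prime_two⟩
  obtain ⟨P⟩ : Nonempty (Sylow 3 G) := inferInstance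
  have hP : Nat.card (P : Subgroup G) = 3 := by
    have := sylow_card (p := 3) (k := 1) (m := 8) (by rw [h]; rfl) (by decide) P
    simpa using this
  have hn : Nat.card (Sylow 3 G) ∣ 8 := by
    have h1 := P.card_dvd_index
    have h2 := (P : Subgroup G).index_mul_card
    rw [hP, h] at h2
    have h3 : (P : Subgroup G).index = 8 := by omega
    rwa [h3] at h1
  have hmod := card_sylow_modEq_one 3 G
  obtain ⟨p, hp1, hp2⟩ : ∃ p : G, p ∈ (P : Subgroup G) ∧ orderOf p = 3 := prime_exists (by rw [hP])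
  have hC : ∀ g : G, g * p = p * g → orderOf g ≠ 2 := by
    intro g hg h2
    exact h6 _ (by rw [prod_order h2 hp2 (by decide) hg])
  have h1 : Nat.card (Sylow 3 G) ≤ 8 := Nat.le_of_dvd (by norm_num) hn
  have h0 : 0 < Nat.card (Sylow 3 G) := Nat.card_pos
  unfold Nat.ModEq at hmod
  have h2 : Nat.card (Sylow 3 G) ≠ 1 := by
    intro h3
    haveI hPn := normal_of_card_one h3 P
    have h5 := card_class p
    have h6 : Nat.card {z : G // IsConj p z} ≤ 3 := by
      rw [← hP]
      apply Nat.card_le_card_of_injective (fun z : {z : G // IsConj p z} => (⟨z.1, by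
        obtain ⟨c, hc⟩ := isConj_iff.1 z.2
        rw [← hc]
        exact hPn.conj_mem p hp1 c⟩ : (P : Subgroup G)))
      intro a b hab
      exact Subtype.ext (congrArg (fun x : (P : Subgroup G) => (x : G)) hab)
    rw [h] at h5
    have h7 : 2 ∣ Nat.card (centralizer ({p} : Set G)) := by
      have h8 : 0 < Nat.card {z : G // IsConj p z} := by
        haveI : Nonempty {z : G // IsConj p z} := ⟨⟨p, IsConj.refl p⟩⟩
        exact Nat.card_pos
      interval_cases h9 : Nat.card {z : G // IsConj p z} <;> omega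
    obtain ⟨g, hg1, hg2⟩ := even_exists h7
    exact hC g (mem_centralizer_singleton_iff.1 hg1) hg2
  interval_cases hc : Nat.card (Sylow 3 G) <;> omega

/-- small groups have at most one subgroup of a large prime order -/
theorem eq_of_small {p : ℕ} (hp : p.Prime) {M Q R : Subgroup G} (hQ : Nat.card Q = p) (hR : Nat.card R = p) (hQM : Q ≤ M) (hRM : R ≤ M)
    (hlt : Nat.card M < p * p) : Q = R := by
  by_contra hne
  have hdis : Disjoint Q R := by
    rw [disjoint_iff]
    have h1 := card_dvd_of_le (inf_le_left : Q ⊓ R ≤ Q)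
    rw [hQ] at h1
    rcases (Nat.dvd_prime hp).1 h1 with h2 | h2
    · exact eq_bot_of_card_eq _ h2
    · exfalso
      apply hne
      have e1 := eq_of_le_of_card_ge (inf_le_left : Q ⊓ R ≤ Q) (by rw [h2, hQ])
      have e2 := eq_of_le_of_card_ge (inf_le_right : Q ⊓ R ≤ R) (by rw [h2, hR])
      exact e1.symm.trans e2
  have h3 := mul_injective_of_disjoint hdis
  have h4 : Function.Injective (fun g : Q × R => (⟨g.1 * g.2, mul_mem (hQM g.1.2) (hRM g.2.2)⟩ : M)) := by
    intro a b hab
    exact h3 (congrArg Subtype.val hab)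
  have h5 := Nat.card_le_card_of_injective _ h4
  rw [Nat.card_prod, hQ, hR] at h5
  omega

theorem le_norm_small {p : ℕ} (hp : p.Prime) {M Q : Subgroup G} (hQ : Nat.card Q = p) (hQM : Q ≤ M) (hlt : Nat.card M < p * p) :
    M ≤ normalizer (Q : Set G) := by
  intro m hm
  rw [mem_normalizer_iff_map_conj_eq]
  apply eq_of_small hp (M := M) _ hQ _ hQM hlt
  · rw [Subgroup.card_map_of_injective (MulEquiv.injective _), hQ]
  · rintro _ ⟨x, hx, rfl⟩
    exact mul_mem (mul_mem hm (hQM hx)) (inv_mem hm)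

theorem relcard {H K : Subgroup G} (hle : H ≤ K) : H.relIndex K * Nat.card H = Nat.card K := by
  have h1 := (H.subgroupOf K).index_mul_card
  rw [Nat.card_congr (Subgroup.subgroupOfEquivOfLe hle).toEquiv] at h1
  exact h1

theorem le_norm_map {K : Subgroup G} (R : Subgroup K) : (normalizer (R : Set K)).map K.subtype ≤ normalizer ((R.map K.subtype : Subgroup G) : Set G) := by
  rintro _ ⟨y, hy, rfl⟩
  rw [mem_normalizer_iff_map_conj_eq]
  apply eq_of_le_of_card_ge
  · rintro _ ⟨_, ⟨x, hx, rfl⟩, rfl⟩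
    refine ⟨y * x * y⁻¹, ?_, rfl⟩
    exact (mem_normalizer_iff.1 hy x).1 hx
  · exact (Subgroup.card_map_of_injective (MulEquiv.injective _)).ge

theorem norm_r {y r : G} (ho : orderOf r = 4) (h1 : y * r * y⁻¹ ∈ zpowers r) : y * r ^ 2 = r ^ 2 * y := by
  rw [← mem_powers_iff_mem_zpowers, Submonoid.mem_powers_iff] at h1
  obtain ⟨k, hk⟩ := h1
  rw [← pow_mod_orderOf, ho] at hk
  have hk4 : k % 4 < 4 := Nat.mod_lt _ (by norm_num)
  have h4 : r ^ 4 = 1 := by rw [← ho, pow_orderOf_eq_one]
  have ho' : orderOf (y * r * y⁻¹) = 4 := by rw [ord_conj, ho]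
  have h5 : y * r ^ 2 * y⁻¹ = (y * r * y⁻¹) ^ 2 := by rw [conj_pow]
  have h6 : y * r ^ 2 * y⁻¹ = r ^ 2 := by
    rw [h5]
    interval_cases hh : k % 4
    · exfalso
      rw [← hk, pow_zero, orderOf_one] at ho'
      omega
    · rw [← hk, pow_one]
    · exfalso
      have h5 : (y * r * y⁻¹) ^ 2 = 1 := by rw [← hk, ← pow_mul, h4]
      have := orderOf_dvd_of_pow_eq_one h5
      rw [ho'] at this
      omega
    · rw [← hk, ← pow_mul]
      have : r ^ (3 * 2) = r ^ 4 * r ^ 2 := by rw [← pow_add]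
      rw [this, h4, one_mul]
  exact mul_inv_eq_iff_eq_mul.1 h6

end gen

section simple
variable {G : Type u} [Group G] [Finite G] [hsimp : IsSimpleGroup G]
variable (h : Nat.card G = 168)
include h

theorem card_cases {M : Subgroup G} (hM : M ≠ ⊤) : Nat.card M = 1 ∨ Nat.card M = 2 ∨ Nat.card M = 3 ∨ Nat.card M = 4 ∨ Nat.card M = 6 ∨
    Nat.card M = 7 ∨ Nat.card M = 8 ∨ Nat.card M = 12 ∨ Nat.card M = 14 ∨ Nat.card M = 21 ∨ Nat.card M = 24 := by
  have h1 := M.index_mul_card
  have h2 := dvd_fact M hM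
  rw [h] at h1 h2
  have h3 : 7 ≤ M.index := by
    by_contra hlt
    push Not at hlt
    have h4 : M.index ≠ 1 := fun h5 => hM (index_eq_one.1 h5)
    revert h2 h4 hlt h1
    generalize M.index = i
    generalize Nat.card M = n
    intro h1 h2 hlt h4
    interval_cases i
    · omega
    · exact h4 rfl
    all_goals (revert h2; decide)
  have h4 : Nat.card M ≤ 24 := by
    by_contra hlt
    push Not at hlt
    have : 7 * 25 ≤ M.index * Nat.card M := Nat.mul_le_mul h3 hlt
    omega
  revert h1 h4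
  generalize M.index = i
  generalize Nat.card M = n
  intro h1 h4
  interval_cases n <;> omega

theorem exists_klein : ∃ U : Subgroup G, IsKleinFour U := by
  haveI : Fact (Nat.Prime 2) := ⟨by norm_num⟩
  obtain ⟨P⟩ : Nonempty (Sylow 2 G) := inferInstance
  obtain ⟨V1, V2, hne, h1, h2, h3, h4, h5⟩ := kleins h P
  exact ⟨V1, h3⟩

theorem le_N_of_syl2 (P : Sylow 2 G) : ∃ U : Subgroup G, IsKleinFour U ∧ (P : Subgroup G) ≤ normalizer (U : Set G) := by
  obtain ⟨V1, V2, hne, h1, h2, h3, h4, h5⟩ := kleins h P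
  exact ⟨V1, h3, le_norm_idx h1 h3.card_four (sy2 h P)⟩

theorem no6 {K : Subgroup G} (g : K) : orderOf g ≠ 6 := by
  intro hg
  rw [← Subgroup.orderOf_coe] at hg
  rcases orders h (g : G) with h1 | h1 | h1 | h1 | h1 <;> omega

theorem norm3_le (Q : Sylow 3 G) : ∃ K : Subgroup G, Nat.card K = 24 ∧ normalizer ((Q : Subgroup G) : Set G) ≤ K := by
  haveI : Fact (Nat.Prime 3) := ⟨by norm_num⟩
  obtain ⟨U, hU⟩ := exists_klein h
  obtain ⟨K, hKd⟩ : ∃ K, K = normalizer (U : Set G) := ⟨_, rfl⟩
  have hK : Nat.card K = 24 := by rw [hKd]; exact card_NU h hU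
  obtain ⟨R⟩ : Nonempty (Sylow 3 K) := inferInstance
  have hn := n3_24 hK (no6 h)
  have hR : Nat.card (R : Subgroup K) = 3 := by
    have := sylow_card (p := 3) (k := 1) (m := 8) (by rw [hK]; rfl) (by decide) R
    simpa using this
  have hNR : Nat.card (normalizer ((R : Subgroup K) : Set K)) = 6 := by
    have h1 := syl_index R
    have h2 := (normalizer ((R : Subgroup K) : Set K)).index_mul_card
    rw [← h1, hn, hK] at h2
    omega
  obtain ⟨Q0, hQ0⟩ := exists_syl h (sy3 h) (H := (R : Subgroup K).map K.subtype) (by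
    rw [Subgroup.card_map_of_injective K.subtype_injective, hR])
  have h1 : (normalizer ((R : Subgroup K) : Set K)).map K.subtype = normalizer ((Q0 : Subgroup G) : Set G) := by
    apply eq_of_le_of_card_ge
    · rw [hQ0]; exact le_norm_map _
    · rw [norm3 h, Subgroup.card_map_of_injective K.subtype_injective, hNR]
  have h2 : normalizer ((Q0 : Subgroup G) : Set G) ≤ K := by
    rw [← h1]
    rintro _ ⟨y, -, rfl⟩
    exact y.2
  obtain ⟨g, hg⟩ := MulAction.exists_smul_eq G Q0 Q
  refine ⟨K.map (MulAut.conj g).toMonoidHom, ?_, ?_⟩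
  · rw [Subgroup.card_map_of_injective (MulEquiv.injective _), hK]
  · have h3 : (Q : Subgroup G) = (Q0 : Subgroup G).map (MulAut.conj g).toMonoidHom := by
      rw [← hg]; rfl
    rw [h3, map_norm h]
    exact map_mono h2

theorem klein_of_four {V P : Subgroup G} (hV : Nat.card V = 4) (hno : ∀ x ∈ V, orderOf x ≠ 4) : IsKleinFour V := by
  apply klein_of hV
  intro x hx
  have h1 := Subgroup.orderOf_dvd_natCard _ hx
  rw [hV] at h1
  have h2 : orderOf x ∣ 2 := by
    have h3 := Nat.le_of_dvd (by norm_num) h1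
    have h4 := hno x hx
    have h0 : 0 < orderOf x := orderOf_pos x
    interval_cases hc : orderOf x <;> omega
  rw [← pow_two]
  exact orderOf_dvd_iff_pow_eq_one.1 h2

theorem card12 {M : Subgroup G} (hM : Nat.card M = 12) : ∃ V : Subgroup G, IsKleinFour V ∧ M ≤ normalizer (V : Set G) := by
  haveI : Fact (Nat.Prime 3) := ⟨by norm_num⟩
  haveI : Fact (Nat.Prime 2) := ⟨by norm_num⟩
  have hs3 : ∀ P : Sylow 3 M, Nat.card (P : Subgroup M) = 3 := by
    intro P
    have := sylow_card (p := 3) (k := 1) (m := 4) (by rw [hM]; rfl) (by decide) P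
    simpa using this
  have hs2 : ∀ P : Sylow 2 M, Nat.card (P : Subgroup M) = 4 := by
    intro P
    have := sylow_card (p := 2) (k := 2) (m := 3) (by rw [hM]; rfl) (by decide) P
    simpa using this
  obtain ⟨R⟩ : Nonempty (Sylow 3 M) := inferInstance
  have hn : Nat.card (Sylow 3 M) = 4 := by
    have h1 := R.card_dvd_index
    have h2 := (R : Subgroup M).index_mul_card
    rw [hs3, hM] at h2
    have h3 : (R : Subgroup M).index = 4 := by omega
    rw [h3] at h1
    have hmod := card_sylow_modEq_one 3 M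
    unfold Nat.ModEq at hmod
    have hle := Nat.le_of_dvd (by norm_num) h1
    have h0 : 0 < Nat.card (Sylow 3 M) := Nat.card_pos
    have hne : Nat.card (Sylow 3 M) ≠ 1 := by
      intro h4
      have h5 := syl_index R
      rw [h4] at h5
      have h6 := index_eq_one.1 h5.symm
      obtain ⟨Q0, hQ0⟩ := exists_syl h (sy3 h) (H := (R : Subgroup M).map M.subtype) (by
        rw [Subgroup.card_map_of_injective M.subtype_injective, hs3])
      have h7 := le_norm_map (R : Subgroup M)
      rw [h6, ← hQ0] at h7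
      have h8 := card_dvd_of_le h7
      rw [norm3 h, Subgroup.card_map_of_injective M.subtype_injective, card_top, hM] at h8
      omega
    interval_cases hc : Nat.card (Sylow 3 M) <;> omega
  have h8 : Nat.card {g : M // orderOf g = 3} = 8 := by rw [syl_count hs3, hn]
  obtain ⟨T⟩ : Nonempty (Sylow 2 M) := inferInstance
  have hT : ∀ x : M, x ∈ (T : Subgroup M) ↔ orderOf x ≠ 3 := by
    have h9 : ((T : Subgroup M) : Set M) = {x : M | orderOf x ≠ 3} := by
      apply Set.eq_of_subset_of_ncard_le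
      · intro x hx
        have h10 := Subgroup.orderOf_dvd_natCard _ (show x ∈ (T : Subgroup M) from hx)
        rw [hs2] at h10
        intro h11
        rw [h11] at h10
        omega
      · have h10 : ((T : Subgroup M) : Set M).ncard = 4 := hs2 T
        rw [h10]
        have h11 := Set.ncard_add_ncard_compl {x : M | orderOf x = 3}
        have h12 : {x : M | orderOf x = 3}.ncard = 8 := h8
        have h13 : {x : M | orderOf x = 3}ᶜ = {x : M | orderOf x ≠ 3} := rfl
        rw [h12, h13, hM] at h11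
        omega
      · exact Set.toFinite _
    intro x
    have : x ∈ ((T : Subgroup M) : Set M) ↔ x ∈ {x : M | orderOf x ≠ 3} := by rw [h9]
    exact this
  have hTn : normalizer ((T : Subgroup M) : Set M) = ⊤ := by
    rw [eq_top_iff]
    intro m _
    rw [mem_normalizer_iff]
    intro x
    rw [hT, hT, ord_conj]
  have hV : Nat.card ((T : Subgroup M).map M.subtype) = 4 := by
    rw [Subgroup.card_map_of_injective M.subtype_injective, hs2]
  have hMV : M ≤ normalizer (((T : Subgroup M).map M.subtype : Subgroup G) : Set G) := by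
    have h9 := le_norm_map (T : Subgroup M)
    rw [hTn, ← MonoidHom.range_eq_map, range_subtype] at h9
    exact h9
  refine ⟨(T : Subgroup M).map M.subtype, klein_of_four h (P := ⊤) hV ?_, hMV⟩
  intro r hr ho
  have hVr : (T : Subgroup M).map M.subtype = zpowers r := by
    symm
    apply eq_of_le_of_card_ge
    · rwa [zpowers_le]
    · rw [hV, Nat.card_zpowers, ho]
  obtain ⟨y, hy1, hy2⟩ := prime_exists (p := 3) (H := M) (by rw [hM]; decide)
  have h9 := (mem_normalizer_iff.1 (hMV hy1) r).1 hr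
  rw [hVr] at h9
  have h10 := norm_r ho h9
  obtain ⟨P, hP⟩ := exists_syl2 h (x := r) (by rw [ho]; decide)
  have h11 : y ∈ (P : Subgroup G) := by
    rw [← cen_sq h P hP ho, mem_centralizer_singleton_iff]
    exact h10
  have h12 := Subgroup.orderOf_dvd_natCard _ h11
  rw [sy2 h, hy2] at h12
  omega

theorem coatom_eq {M K : Subgroup G} (hM : IsCoatom M) (hle : M ≤ K) (hK : K ≠ ⊤) : M = K := by
  rcases hM.le_iff.1 hle with h1 | h1
  · exact absurd h1 hK
  · exact h1.symm

theorem coatom_cases {M : Subgroup G} (hM : IsCoatom M) : Nat.card M = 24 ∨ ∃ Q : Sylow 7 G, M = normalizer ((Q : Subgroup G) : Set G) := by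
  haveI : Fact (Nat.Prime 2) := ⟨by norm_num⟩
  haveI : Fact (Nat.Prime 3) := ⟨by norm_num⟩
  haveI : Fact (Nat.Prime 7) := ⟨by norm_num⟩
  have two : ∀ n, Nat.card M = 2 ^ n → 2 ^ n ≠ 24 → False := by
    intro n hn hne
    obtain ⟨P, hP⟩ := le_some_syl2 h hn
    obtain ⟨U, hU, hPU⟩ := le_N_of_syl2 h P
    have h1 := coatom_eq h hM (hP.trans hPU) (norm_ne_top h hU.card_four (by decide) (by decide))
    have h2 := card_NU h hU
    rw [← h1, hn] at h2
    exact hne h2
  have seven : 7 ∣ Nat.card M → Nat.card M < 7 * 7 → ∃ Q : Sylow 7 G, M = normalizer ((Q : Subgroup G) : Set G) := by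
    intro h7 hlt
    obtain ⟨x, hx1, hx2⟩ := prime_exists h7
    obtain ⟨Q, hQ⟩ := exists_syl h (sy7 h) (H := zpowers x) (by rw [Nat.card_zpowers, hx2])
    refine ⟨Q, ?_⟩
    apply coatom_eq h hM
    · apply le_norm_small (by norm_num) (sy7 h Q) _ hlt
      rw [hQ, zpowers_le]; exact hx1
    · exact norm_ne_top h (sy7 h Q) (by decide) (by decide)
  rcases card_cases h hM.1 with h1 | h1 | h1 | h1 | h1 | h1 | h1 | h1 | h1 | h1 | h1
  · exact (two 0 (by rw [h1]; rfl) (by decide)).elim
  · exact (two 1 (by rw [h1]; rfl) (by decide)).elim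
  · exfalso
    obtain ⟨Q, hQ⟩ := exists_syl h (sy3 h) h1
    have h2 := coatom_eq h hM (K := normalizer (M : Set G)) le_normalizer (norm_ne_top h h1 (by decide) (by decide))
    have h3 := norm3 h Q
    rw [hQ, ← h2, h1] at h3
    omega
  · exact (two 2 (by rw [h1]; rfl) (by decide)).elim
  · exfalso
    obtain ⟨x, hx1, hx2⟩ := prime_exists (p := 3) (H := M) (by rw [h1]; decide)
    obtain ⟨Q, hQ⟩ := exists_syl h (sy3 h) (H := zpowers x) (by rw [Nat.card_zpowers, hx2])
    have h2 : M ≤ normalizer ((Q : Subgroup G) : Set G) := by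
      apply le_norm_small (by norm_num) (sy3 h Q) _ (by rw [h1]; decide)
      rw [hQ, zpowers_le]; exact hx1
    obtain ⟨K, hK1, hK2⟩ := norm3_le h Q
    have h3 := coatom_eq h hM (h2.trans hK2) (ne_top_of h hK1 (by decide))
    rw [h3, hK1] at h1
    omega
  · right; exact seven (by rw [h1]) (by rw [h1]; decide)
  · exact (two 3 (by rw [h1]; rfl) (by decide)).elim
  · exfalso
    obtain ⟨V, hV1, hV2⟩ := card12 h h1
    have h3 := coatom_eq h hM hV2 (norm_ne_top h hV1.card_four (by decide) (by decide))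
    have h4 := card_NU h hV1
    rw [← h3, h1] at h4
    omega
  · right; exact seven (by rw [h1]; decide) (by rw [h1]; decide)
  · right; exact seven (by rw [h1]; decide) (by rw [h1]; decide)
  · left; exact h1

theorem nonab21 (Q : Sylow 7 G) : ¬ IsMulCommutative (normalizer ((Q : Subgroup G) : Set G)) := by
  intro hc
  have h1 : normalizer ((Q : Subgroup G) : Set G) ≤ centralizer ((Q : Subgroup G) : Set G) := by
    intro x hx
    rw [mem_centralizer_iff]
    intro y hy
    have := hc.is_comm.comm (⟨y, le_normalizer hy⟩ : normalizer ((Q : Subgroup G) : Set G)) ⟨x, hx⟩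
    exact congrArg Subtype.val this
  have h2 := card_dvd_of_le h1
  rw [norm7 h, cen7P h] at h2
  omega

theorem coatom_24 {K : Subgroup G} (hK : Nat.card K = 24) : IsCoatom K := by
  refine ⟨ne_top_of h hK (by decide), ?_⟩
  intro L hL
  by_contra hne
  have h1 := card_dvd_of_le hL.le
  rw [hK] at h1
  have h3 : Nat.card L ≠ 24 := by
    intro h4
    exact hL.ne (eq_of_le_of_card_ge hL.le (by rw [h4, hK]))
  rcases card_cases h hne with h2 | h2 | h2 | h2 | h2 | h2 | h2 | h2 | h2 | h2 | h2 <;> rw [h2] at h1 h3 <;> omega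

/-- subgroups of order `24` are normalisers of Klein four-groups -/
theorem eq_NU {M : Subgroup G} (hM : Nat.card M = 24) : ∃ D : Subgroup G, IsKleinFour D ∧ M = normalizer (D : Set G) := by
  haveI : Fact (Nat.Prime 2) := ⟨by norm_num⟩
  obtain ⟨T⟩ : Nonempty (Sylow 2 M) := inferInstance
  have hT : Nat.card (T : Subgroup M) = 8 := by
    have := sylow_card (p := 2) (k := 3) (m := 3) (by rw [hM]; rfl) (by decide) T
    simpa using this
  obtain ⟨P, hP⟩ := mk_syl2 h (H := (T : Subgroup M).map M.subtype) (by rw [Subgroup.card_map_of_injective M.subtype_injective, hT])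
  have hPM : (P : Subgroup G) ≤ M := by
    rw [hP]
    rintro _ ⟨y, -, rfl⟩
    exact y.2
  obtain ⟨m, hm, hmP⟩ : ∃ m ∈ M, m ∉ (P : Subgroup G) := by
    by_contra hcon
    push Not at hcon
    have h1 : M ≤ (P : Subgroup G) := hcon
    have h2 := card_dvd_of_le h1
    rw [hM, sy2 h] at h2
    omega
  have hne : m • P ≠ P := by
    intro h1
    have h2 : m ∈ normalizer ((P : Subgroup G) : Set G) := Sylow.smul_eq_iff_mem_normalizer.1 h1
    rw [norm2 h] at h2
    exact hmP h2
  obtain ⟨Q, hQ⟩ : ∃ Q, Q = m • P := ⟨_, rfl⟩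
  have hQM : (Q : Subgroup G) ≤ M := by
    rw [hQ]
    rintro _ ⟨y, hy, rfl⟩
    exact mul_mem (mul_mem hm (hPM hy)) (inv_mem hm)
  have hPQ : (P : Subgroup G) ≠ (Q : Subgroup G) := by
    intro h1
    exact hne (hQ.symm.trans (Sylow.ext h1).symm)
  have hD : Nat.card ((P : Subgroup G) ⊓ (Q : Subgroup G) : Subgroup G) = 4 := by
    have h1 := relIndex_inf_le (H := (P : Subgroup G)) (K := (Q : Subgroup G)) (L := M)
    have h2 := relcard hPM
    have h3 := relcard hQM
    have h4 := relcard (inf_le_left.trans hPM : (P : Subgroup G) ⊓ (Q : Subgroup G) ≤ M)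
    rw [sy2 h, hM] at h2 h3
    rw [hM] at h4
    have h5 : (P : Subgroup G).relIndex M = 3 := by omega
    have h6 : (Q : Subgroup G).relIndex M = 3 := by omega
    rw [h5, h6] at h1
    have h9 := card_dvd_of_le (inf_le_left : (P : Subgroup G) ⊓ (Q : Subgroup G) ≤ (P : Subgroup G))
    rw [sy2 h] at h9
    have h10 : Nat.card ((P : Subgroup G) ⊓ (Q : Subgroup G) : Subgroup G) ≠ 8 := by
      intro h11
      have e1 := eq_of_le_of_card_ge (inf_le_left : (P : Subgroup G) ⊓ (Q : Subgroup G) ≤ (P : Subgroup G)) (by rw [h11, sy2 h])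
      have e2 := eq_of_le_of_card_ge (inf_le_right : (P : Subgroup G) ⊓ (Q : Subgroup G) ≤ (Q : Subgroup G)) (by rw [h11, sy2 h])
      exact hPQ (e1.symm.trans e2)
    have h11 := Nat.le_of_dvd (by norm_num) h9
    revert h1 h4 h9 h10 h11
    generalize Nat.card ((P : Subgroup G) ⊓ (Q : Subgroup G) : Subgroup G) = n
    generalize ((P : Subgroup G) ⊓ (Q : Subgroup G)).relIndex M = i
    intro h1 h4 h9 h10 h11
    interval_cases n <;> omega
  obtain ⟨D, hDd⟩ : ∃ D, D = (P : Subgroup G) ⊓ (Q : Subgroup G) := ⟨_, rfl⟩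
  rw [← hDd] at hD
  have hDP : D ≤ (P : Subgroup G) := by rw [hDd]; exact inf_le_left
  have hDQ : D ≤ (Q : Subgroup G) := by rw [hDd]; exact inf_le_right
  have hP' := le_norm_idx hDP hD (sy2 h P)
  have hQ' := le_norm_idx hDQ hD (sy2 h Q)
  have hMt := ne_top_of h hM (by decide)
  have h1 : Nat.card (M ⊓ normalizer (D : Set G) : Subgroup G) = 24 := by
    apply card24 h _ (sy2 h P) (sy2 h Q) hPQ (le_inf hPM hP') (le_inf hQM hQ')
    intro h2
    exact hMt (top_le_iff.1 (h2 ▸ inf_le_left))
  have h2 : M ⊓ normalizer (D : Set G) = M := eq_of_le_of_card_ge inf_le_left (by rw [h1, hM])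
  have h3 : M ≤ normalizer (D : Set G) := by rw [← h2]; exact inf_le_right
  refine ⟨D, klein_of_four h (P := ⊤) hD ?_, coatom_eq h (coatom_24 h hM) h3 (norm_ne_top h hD (by decide) (by decide))⟩
  intro x hx ho
  apply hPQ
  rw [← cen_sq h P (hDP hx) ho, ← cen_sq h Q (hDQ hx) ho]

/-- the maximal subgroups of a simple group of order `168` -/
theorem maximals : (∀ M : Subgroup G, IsCoatom M → Nonempty (↥M ≃* Equiv.Perm (Fin 4)) ∨ (Nat.card ↥M = 21 ∧ ¬ IsMulCommutative ↥M)) ∧
    (∀ M M' : Subgroup G, IsCoatom M → IsCoatom M' → Nat.card ↥M = 21 → Nat.card ↥M' = 21 → ∃ g : G, M' = M.map (MulAut.conj g).toMonoidHom) ∧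
    ∃ M₁ M₂ : Subgroup G, IsCoatom M₁ ∧ IsCoatom M₂ ∧ Nonempty (↥M₁ ≃* Equiv.Perm (Fin 4)) ∧ Nonempty (↥M₂ ≃* Equiv.Perm (Fin 4)) ∧
      (∀ g : G, M₂ ≠ M₁.map (MulAut.conj g).toMonoidHom) ∧
      ∀ M : Subgroup G, IsCoatom M → Nonempty (↥M ≃* Equiv.Perm (Fin 4)) →
        ∃ g : G, M = M₁.map (MulAut.conj g).toMonoidHom ∨ M = M₂.map (MulAut.conj g).toMonoidHom := by
  haveI : Fact (Nat.Prime 2) := ⟨by norm_num⟩
  haveI : Fact (Nat.Prime 7) := ⟨by norm_num⟩
  refine ⟨?_, ?_, ?_⟩
  · intro M hM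
    rcases coatom_cases h hM with h1 | ⟨Q, rfl⟩
    · left; exact s4_of_24 h h1
    · right; exact ⟨norm7 h Q, nonab21 h Q⟩
  · intro M M' hM hM' h1 h2
    rcases coatom_cases h hM with h3 | ⟨Q, rfl⟩
    · omega
    rcases coatom_cases h hM' with h3 | ⟨Q', rfl⟩
    · omega
    obtain ⟨g, hg⟩ := MulAction.exists_smul_eq G Q Q'
    refine ⟨g, ?_⟩
    have h3 : (Q' : Subgroup G) = (Q : Subgroup G).map (MulAut.conj g).toMonoidHom := by
      rw [← hg]; rfl
    rw [h3, map_norm h]
  · obtain ⟨P⟩ : Nonempty (Sylow 2 G) := inferInstance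
    obtain ⟨V1, V2, hne, h1, h2, h3, h4, h5⟩ := kleins h P
    refine ⟨normalizer (V1 : Set G), normalizer (V2 : Set G), coatom_24 h (card_NU h h3), coatom_24 h (card_NU h h4), s4_NU h h3, s4_NU h h4, ?_, ?_⟩
    · intro g hg
      rw [← map_norm h] at hg
      have h6 : V1.map (MulAut.conj g).toMonoidHom = V2 := by
        apply klein_inj h h4 _ hg.le
        rw [Subgroup.card_map_of_injective (MulEquiv.injective _), h3.card_four]
      exact hne (klein_nonconj h P h1 h2 h3 h4 h6)
    · rintro M hM ⟨e⟩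
      have hMc : Nat.card M = 24 := by
        rw [Nat.card_congr e.toEquiv, Nat.card_perm, Nat.card_eq_fintype_card, Fintype.card_fin]; rfl
      obtain ⟨D, hD, hMD⟩ := eq_NU h hMc
      obtain ⟨P', hP'⟩ := le_some_syl2 h (H := D) (n := 2) (by rw [hD.card_four]; rfl)
      obtain ⟨g, hg⟩ := MulAction.exists_smul_eq G P' P
      have h6 : D.map (MulAut.conj g).toMonoidHom ≤ (P : Subgroup G) := by
        rw [← hg]; exact map_mono hP'
      have h7 : IsKleinFour (D.map (MulAut.conj g).toMonoidHom : Subgroup G) := by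
        apply klein_of
        · rw [Subgroup.card_map_of_injective (MulEquiv.injective _), hD.card_four]
        · rintro _ ⟨x, hx, rfl⟩
          rw [← map_mul, klein_sq hD hx, map_one]
      have h8 : ∀ V : Subgroup G, D.map (MulAut.conj g).toMonoidHom = V → M = (normalizer (V : Set G)).map (MulAut.conj g⁻¹).toMonoidHom := by
        intro V hV
        rw [← map_norm h, ← hV, map_map, hMD]
        congr 2
        have : ((MulAut.conj g⁻¹).toMonoidHom.comp (MulAut.conj g).toMonoidHom) = MonoidHom.id G := by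
          ext x
          simp [mul_assoc]
        rw [this, map_id]
      refine ⟨g⁻¹, ?_⟩
      rcases h5 _ h6 h7 with h9 | h9
      · left; exact h8 _ h9
      · right; exact h8 _ h9

end simple

end CfsgLib.O168
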