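import Mathlib
import Cfsg.Agent.LibO168g

/-! Simple groups of order `504` (seat helper15). -/

set_option autoImplicit false
set_option linter.all false

namespace CfsgLib.O504

open Subgroup MulAction CfsgLib.O168

universe u

section gen
variable {G : Type u} [Group G]

theorem inverts {A : Subgroup G} (hA : ∀ a ∈ A, ∀ b ∈ A, a * b = b * a) {t : G} (ht : t * t = 1) (htN : t ∈ normalizer (A : Set G))
    (hfree : ∀ u ∈ A, t * u = u * t → u = 1) {x : G} (hx : x ∈ A) : t * x * t⁻¹ = x⁻¹ := by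
  have hti : t⁻¹ = t := inv_eq_of_mul_eq_one_left ht
  have h1 : t * x * t⁻¹ ∈ A := (mem_normalizer_iff.1 htN x).1 hx
  have h2 := hfree (t * x * t⁻¹ * x) (mul_mem h1 hx) (by
    have h3 := hA _ h1 _ hx
    have h4 : t * (t * x * t⁻¹ * x) = x * (t * x * t⁻¹) * t := by
      calc t * (t * x * t⁻¹ * x) = (t * t) * x * (t⁻¹ * x) := by group
        _ = x * t⁻¹ * x := by rw [ht]; group
        _ = x * t * x := by rw [hti]
        _ = x * (t * x * t⁻¹) * t := by group
    rw [h4, h3])
  exact mul_eq_one_iff_eq_inv.1 h2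

theorem cen_le_norm' (H : Subgroup G) : centralizer (H : Set G) ≤ normalizer (H : Set G) := by
  intro g hg
  rw [mem_normalizer_iff]
  intro x
  rw [mem_centralizer_iff] at hg
  constructor
  · intro hx
    have := hg x hx
    rw [← this]; simpa using hx
  · intro hx
    have h1 := hg _ hx
    have : x = g * x * g⁻¹ := by
      have h2 : g * x * g⁻¹ * g = g * (g * x * g⁻¹) := h1
      have h3 : g * x = g * (g * x * g⁻¹) := by rw [← h2]; group
      exact mul_left_cancel h3
    rw [this]; exact hx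

theorem cen_zpowers' (x : G) : centralizer ((zpowers x : Subgroup G) : Set G) = centralizer ({x} : Set G) := by
  apply le_antisymm
  · exact centralizer_le (by simp)
  · intro g hg
    rw [mem_centralizer_singleton_iff] at hg
    rw [mem_centralizer_iff]
    rintro y ⟨k, rfl⟩
    exact (Commute.zpow_left (show Commute x g from hg.symm) k)

theorem le_cen_self' [Finite G] {p : ℕ} [hp : Fact p.Prime] {H : Subgroup G} (hH : Nat.card H = p) : H ≤ centralizer (H : Set G) := by
  haveI : IsCyclic H := isCyclic_of_prime_card hH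
  intro x hx
  rw [mem_centralizer_iff]
  intro y hy
  have := (IsCyclic.commutative (α := H)).is_comm.comm ⟨y, hy⟩ ⟨x, hx⟩
  exact congrArg Subtype.val this

theorem exists_syl' [Finite G] {p : ℕ} [hp : Fact p.Prime] (hsy : ∀ P : Sylow p G, Nat.card (P : Subgroup G) = p) {H : Subgroup G} (hH : Nat.card H = p) :
    ∃ Q : Sylow p G, (Q : Subgroup G) = H := by
  have hpg : IsPGroup p H := by
    rw [IsPGroup.iff_card]
    exact ⟨1, by rw [hH, pow_one]⟩
  obtain ⟨Q, hQ⟩ := hpg.exists_le_sylow
  refine ⟨Q, ?_⟩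
  symm
  apply eq_of_le_of_card_ge hQ
  rw [hsy Q, hH]

theorem prime_inf [Finite G] {p : ℕ} (hp : p.Prime) {Q R : Subgroup G} (hQ : Nat.card Q = p) (hR : Nat.card R = p) (hne : Q ≠ R) : Q ⊓ R = ⊥ := by
  have h1 := card_dvd_of_le (inf_le_left : Q ⊓ R ≤ Q)
  rw [hQ] at h1
  rcases (Nat.dvd_prime hp).1 h1 with h2 | h2
  · exact eq_bot_of_card_eq _ h2
  · exfalso
    apply hne
    have e1 := eq_of_le_of_card_ge (inf_le_left : Q ⊓ R ≤ Q) (by rw [h2, hQ])
    have e2 := eq_of_le_of_card_ge (inf_le_right : Q ⊓ R ≤ R) (by rw [h2, hR])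
    exact e1.symm.trans e2

end gen

section simple
variable {G : Type u} [Group G] [Finite G] [hsimp : IsSimpleGroup G]

theorem sylow_ne_one' {p : ℕ} [hp : Fact p.Prime] {k m : ℕ} (hk : k ≠ 0) (hm1 : m ≠ 1) (h' : Nat.card G = p ^ k * m) (hm : ¬ p ∣ m) :
    Nat.card (Sylow p G) ≠ 1 := by
  intro h1
  obtain ⟨P⟩ : Nonempty (Sylow p G) := inferInstance
  have hP := sylow_card h' hm P
  have hpk : 1 < p ^ k := Nat.one_lt_pow hk hp.out.one_lt
  rcases (normal_of_card_one h1 P).eq_bot_or_eq_top with h2 | h2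
  · rw [h2, card_bot] at hP
    omega
  · rw [h2, card_top, h'] at hP
    have hm0 : m ≠ 0 := by rintro rfl; exact hm (dvd_zero _)
    have : m = 1 := by
      have h3 : p ^ k * m = p ^ k * 1 := by omega
      exact Nat.eq_of_mul_eq_mul_left (by omega) h3
    exact hm1 this

theorem ne_bot_of' {H : Subgroup G} {n : ℕ} (hn : Nat.card H = n) (h1 : n ≠ 1) : H ≠ ⊥ := by
  rintro rfl
  rw [card_bot] at hn
  exact h1 hn.symm

variable (h : Nat.card G = 504)
include h

theorem ne_top_of' {H : Subgroup G} {n : ℕ} (hn : Nat.card H = n) (h1 : n ≠ 504) : H ≠ ⊤ := by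
  rintro rfl
  rw [card_top, h] at hn
  exact h1 hn.symm

theorem norm_ne_top' {U : Subgroup G} {n : ℕ} (hU : Nat.card U = n) (h1 : n ≠ 1) (h2 : n ≠ 504) : normalizer (U : Set G) ≠ ⊤ := by
  intro h3
  have h4 : U.Normal := normalizer_eq_top_iff.1 h3
  rcases h4.eq_bot_or_eq_top with h5 | h5
  · exact ne_bot_of' hU h1 h5
  · exact ne_top_of' h hU h2 h5

theorem s7 (P : Sylow 7 G) : Nat.card (P : Subgroup G) = 7 := by
  haveI : Fact (Nat.Prime 7) := ⟨by norm_num⟩
  have := sylow_card (p := 7) (k := 1) (m := 72) (by rw [h]; rfl) (by decide) P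
  simpa using this

theorem s3 (P : Sylow 3 G) : Nat.card (P : Subgroup G) = 9 := by
  haveI : Fact (Nat.Prime 3) := ⟨by norm_num⟩
  have := sylow_card (p := 3) (k := 2) (m := 56) (by rw [h]; rfl) (by decide) P
  simpa using this

theorem s2 (P : Sylow 2 G) : Nat.card (P : Subgroup G) = 8 := by
  haveI : Fact (Nat.Prime 2) := ⟨by norm_num⟩
  have := sylow_card (p := 2) (k := 3) (m := 63) (by rw [h]; rfl) (by decide) P
  simpa using this

theorem faithful_syl {p : ℕ} [hp : Fact p.Prime] (hne : Nat.card (Sylow p G) ≠ 1) : Function.Injective (MulAction.toPermHom G (Sylow p G)) := by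
  rw [← MonoidHom.ker_eq_bot_iff]
  rcases (inferInstance : (MulAction.toPermHom G (Sylow p G)).ker.Normal).eq_bot_or_eq_top with h1 | h1
  · exact h1
  · exfalso
    apply hne
    rw [Nat.card_eq_one_iff_unique]
    refine ⟨⟨?_⟩, inferInstance⟩
    intro P Q
    obtain ⟨g, hg⟩ := MulAction.exists_smul_eq G P Q
    rw [← hg]
    have h2 : g ∈ (MulAction.toPermHom G (Sylow p G)).ker := by rw [h1]; trivial
    rw [MonoidHom.mem_ker] at h2
    have h3 := congrArg (fun f => f P) h2
    exact (show g • P = P from h3).symm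

theorem n7_ne8 : Nat.card (Sylow 7 G) ≠ 8 := by
  haveI : Fact (Nat.Prime 7) := ⟨by norm_num⟩
  haveI : Fact (Nat.Prime 3) := ⟨by norm_num⟩
  intro h8
  obtain ⟨P⟩ : Nonempty (Sylow 7 G) := inferInstance
  have hP := s7 h P
  have hN : Nat.card (normalizer ((P : Subgroup G) : Set G)) = 63 := by
    have h1 := syl_index P
    have h2 := (normalizer ((P : Subgroup G) : Set G)).index_mul_card
    rw [← h1, h8, h] at h2
    omega
  obtain ⟨x, hx1, hx2⟩ := prime_exists (p := 7) (H := (P : Subgroup G)) (by rw [hP])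
  have hPx : (P : Subgroup G) = zpowers x := by
    symm
    apply eq_of_le_of_card_ge
    · rwa [zpowers_le]
    · rw [hP, Nat.card_zpowers, hx2]
  obtain ⟨y, hy1, hy2, hy3⟩ : ∃ y ∈ normalizer ((P : Subgroup G) : Set G), orderOf y = 3 ∧ y * x = x * y := by
    let x' : normalizer ((P : Subgroup G) : Set G) := ⟨x, le_normalizer hx1⟩
    have h1 := card_class x'
    have h2 : Nat.card {z : normalizer ((P : Subgroup G) : Set G) // IsConj x' z} ≤ 6 := by
      have h3 : Nat.card {u : (P : Subgroup G) // u ≠ 1} = 6 := by rw [card_ne_one, hP]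
      rw [← h3]
      apply Nat.card_le_card_of_injective (fun z : {z : normalizer ((P : Subgroup G) : Set G) // IsConj x' z} => (⟨⟨z.1.1, by
        obtain ⟨c, hc⟩ := isConj_iff.1 z.2
        rw [← hc]
        exact (mem_normalizer_iff.1 c.2 x).1 hx1⟩, by
        intro h4
        have h5 : z.1.1 = 1 := congrArg Subtype.val h4
        obtain ⟨c, hc⟩ := isConj_iff.1 z.2
        have h6 : (c : G) * x * (c : G)⁻¹ = z.1.1 := congrArg Subtype.val hc
        rw [h5] at h6
        have h7 := ord_conj (c : G) x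
        rw [h6, orderOf_one, hx2] at h7
        omega⟩ : {u : (P : Subgroup G) // u ≠ 1}))
      intro a b hab
      exact Subtype.ext (Subtype.ext (congrArg (fun u : {u : (P : Subgroup G) // u ≠ 1} => (u.1 : G)) hab))
    rw [hN] at h1
    have h3 : 3 ∣ Nat.card (centralizer ({x'} : Set (normalizer ((P : Subgroup G) : Set G)))) := by
      have h4 : 0 < Nat.card {z : normalizer ((P : Subgroup G) : Set G) // IsConj x' z} := by
        haveI : Nonempty {z : normalizer ((P : Subgroup G) : Set G) // IsConj x' z} := ⟨⟨x', IsConj.refl x'⟩⟩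
        exact Nat.card_pos
      revert h1 h2 h4
      generalize Nat.card {z : normalizer ((P : Subgroup G) : Set G) // IsConj x' z} = i
      generalize Nat.card (centralizer ({x'} : Set (normalizer ((P : Subgroup G) : Set G)))) = n
      intro h1 h2 h4
      interval_cases i <;> omega
    obtain ⟨y, hy1, hy2⟩ := prime_exists h3
    refine ⟨y, y.2, by rw [Subgroup.orderOf_coe]; exact hy2, ?_⟩
    exact congrArg Subtype.val (mem_centralizer_singleton_iff.1 hy1)
  obtain ⟨Q0, hQ0⟩ : ∃ Q : Sylow 7 G, Q ≠ P := by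
    by_contra hcon
    push Not at hcon
    have : Nat.card (Sylow 7 G) = 1 := by
      rw [Nat.card_eq_one_iff_unique]
      exact ⟨⟨fun a b => (hcon a).trans (hcon b).symm⟩, inferInstance⟩
    omega
  have hfree : ∀ a ∈ (P : Subgroup G), a • Q0 = Q0 → a = 1 := by
    intro a ha haQ
    have h1 := Sylow.smul_eq_iff_mem_normalizer.1 haQ
    have h2 : orderOf a ∣ 7 := by
      have := Subgroup.orderOf_dvd_natCard _ ha
      rwa [hP] at this
    rcases (Nat.dvd_prime (by norm_num)).1 h2 with h3 | h3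
    · exact orderOf_eq_one_iff.1 h3
    · have h4 := mem_syl Q0 (n := 1) (by rw [h3, pow_one]) h1
      have h5 := prime_inf (by norm_num : Nat.Prime 7) hP (s7 h Q0) (fun h6 => hQ0 (Sylow.ext h6).symm)
      have h6 : a ∈ (P : Subgroup G) ⊓ (Q0 : Subgroup G) := ⟨ha, h4⟩
      rw [h5, mem_bot] at h6
      exact h6
  have hPfix : ∀ a ∈ (P : Subgroup G), a • P = P := fun a ha => Sylow.smul_eq_iff_mem_normalizer.2 (le_normalizer ha)
  have hbij : Function.Bijective (fun a : (P : Subgroup G) => (⟨(a : G) • Q0, by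
      intro h1
      apply hQ0
      have h2 := hPfix a a.2
      exact smul_left_cancel (a : G) (h1.trans h2.symm)⟩ : {Q : Sylow 7 G // Q ≠ P})) := by
    rw [Nat.bijective_iff_injective_and_card]
    refine ⟨?_, by rw [hP, card_ne_one, h8]⟩
    intro a b hab
    have h1 : (a : G) • Q0 = (b : G) • Q0 := congrArg Subtype.val hab
    have h2 := hfree ((b : G)⁻¹ * a) (mul_mem (inv_mem b.2) a.2) (by rw [mul_smul, h1, inv_smul_smul])
    exact Subtype.ext (inv_mul_eq_one.1 h2).symm
  have hyP : y • P = P := Sylow.smul_eq_iff_mem_normalizer.2 hy1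
  obtain ⟨a, ha⟩ := hbij.2 ⟨y • Q0, by
    intro h1
    exact hQ0 (smul_left_cancel y (h1.trans hyP.symm))⟩
  have ha' : (a : G) • Q0 = y • Q0 := congrArg Subtype.val ha
  have hab : ∀ b ∈ (P : Subgroup G), ∀ c ∈ (P : Subgroup G), b * c = c * b := by
    rw [hPx]
    rintro _ ⟨i, rfl⟩ _ ⟨j, rfl⟩
    exact (Commute.refl x).zpow_zpow i j
  have hyc : ∀ b ∈ (P : Subgroup G), y * b = b * y := by
    rw [hPx]
    rintro _ ⟨i, rfl⟩
    exact (show Commute y x from hy3).zpow_right i
  have hw : ∀ Q : Sylow 7 G, ((a : G)⁻¹ * y) • Q = Q := by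
    intro Q
    by_cases hQ : Q = P
    · rw [hQ, mul_smul, hyP, inv_smul_eq_iff]
      exact (hPfix a a.2).symm
    · obtain ⟨b, hb⟩ := hbij.2 ⟨Q, hQ⟩
      have hb' : (b : G) • Q0 = Q := congrArg Subtype.val hb
      rw [← hb', ← mul_smul]
      have : (a : G)⁻¹ * y * b = b * ((a : G)⁻¹ * y) := by
        rw [mul_assoc, hyc b b.2, ← mul_assoc, hab _ (inv_mem a.2) b b.2, mul_assoc]
      rw [this, mul_smul, mul_smul, ← ha', inv_smul_smul]
  have hw1 : (a : G)⁻¹ * y = 1 := by
    apply faithful_syl h (p := 7) (by omega)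
    rw [map_one]
    apply Equiv.ext
    intro Q
    exact hw Q
  have hya : y = a := (inv_mul_eq_one.1 hw1).symm
  have h1 := Subgroup.orderOf_dvd_natCard _ a.2
  rw [← hya, hy2, hP] at h1
  omega

theorem card7 : Nat.card (Sylow 7 G) = 36 := by
  haveI : Fact (Nat.Prime 7) := ⟨by norm_num⟩
  obtain ⟨P⟩ : Nonempty (Sylow 7 G) := inferInstance
  have h1 := P.card_dvd_index
  have h2 := (P : Subgroup G).index_mul_card
  rw [s7 h, h] at h2
  have h3 : (P : Subgroup G).index = 72 := by omega
  rw [h3] at h1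
  have hmod := card_sylow_modEq_one 7 G
  have hle := Nat.le_of_dvd (by norm_num) h1
  have h0 : 0 < Nat.card (Sylow 7 G) := Nat.card_pos
  have hne : Nat.card (Sylow 7 G) ≠ 1 := sylow_ne_one' (p := 7) (k := 1) (m := 72) (by decide) (by decide) (by rw [h]; rfl) (by decide)
  have hne8 := n7_ne8 h
  unfold Nat.ModEq at hmod
  revert h1 hmod hle h0 hne hne8
  generalize Nat.card (Sylow 7 G) = n
  intro h1 hmod hle h0 hne hne8
  interval_cases n <;> omega

theorem nm7 (P : Sylow 7 G) : Nat.card (normalizer ((P : Subgroup G) : Set G)) = 14 := by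
  haveI : Fact (Nat.Prime 7) := ⟨by norm_num⟩
  have h1 := syl_index P
  have h2 := (normalizer ((P : Subgroup G) : Set G)).index_mul_card
  rw [← h1, card7 h, h] at h2
  omega

theorem c7P (P : Sylow 7 G) : Nat.card (centralizer ((P : Subgroup G) : Set G)) = 7 := by
  haveI : Fact (Nat.Prime 7) := ⟨by norm_num⟩
  have h1 := card_dvd_of_le (cen_le_norm' (P : Subgroup G))
  have h2 := card_dvd_of_le (le_cen_self' (s7 h P))
  rw [nm7 h] at h1
  rw [s7 h] at h2
  have h3 := Nat.le_of_dvd (by norm_num) h1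
  have h4 : Nat.card (centralizer ((P : Subgroup G) : Set G)) ≠ 14 := by
    intro h5
    apply not_burnside P (ne_bot_of' (s7 h P) (by decide)) (ne_top_of' h (s7 h P) (by decide))
    apply le_of_eq
    symm
    apply eq_of_le_of_card_ge (cen_le_norm' _)
    rw [nm7 h, h5]
  obtain ⟨k, hk⟩ := h2
  rw [hk] at h1 h3 h4 ⊢
  have h5 : k ≤ 2 := by omega
  interval_cases k <;> omega

theorem c7 {x : G} (hx : orderOf x = 7) : Nat.card (centralizer ({x} : Set G)) = 7 := by
  haveI : Fact (Nat.Prime 7) := ⟨by norm_num⟩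
  obtain ⟨Q, hQ⟩ := exists_syl' (s7 h) (H := zpowers x) (by rw [Nat.card_zpowers, hx])
  rw [← cen_zpowers', ← hQ]
  exact c7P h Q

/-- no subgroup of index 7 -/
theorem no7 (M : Subgroup G) : M.index ≠ 7 := by
  classical
  haveI : Fact (Nat.Prime 7) := ⟨by norm_num⟩
  haveI : Fact (Nat.Prime 2) := ⟨by norm_num⟩
  intro hM
  have hMt : M ≠ ⊤ := by
    intro h1
    rw [h1, index_top] at hM
    omega
  obtain ⟨Φ, hΦ⟩ : ∃ Φ, Φ = MulAction.toPermHom G (G ⧸ M) := ⟨_, rfl⟩
  have hinj : Function.Injective Φ := by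
    rw [← MonoidHom.ker_eq_bot_iff, hΦ]
    rcases (inferInstance : (MulAction.toPermHom G (G ⧸ M)).ker.Normal).eq_bot_or_eq_top with h1 | h1
    · exact h1
    · exfalso
      apply hMt
      rw [← normalCore_eq_ker] at h1
      rw [eq_top_iff, ← h1]
      exact normalCore_le M
  haveI : Fintype (G ⧸ M) := Fintype.ofFinite _
  have hc : Fintype.card (G ⧸ M) = 7 := by
    rw [← Nat.card_eq_fintype_card]; exact hM
  obtain ⟨P⟩ : Nonempty (Sylow 7 G) := inferInstance
  have hP := s7 h P
  obtain ⟨t, ht1, ht2⟩ := prime_exists (p := 2) (H := normalizer ((P : Subgroup G) : Set G)) (by rw [nm7 h]; decide)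
  have htt : t * t = 1 := by rw [← pow_two, ← ht2, pow_orderOf_eq_one]
  have ho7 : ∀ u ∈ (P : Subgroup G), u ≠ 1 → orderOf u = 7 := by
    intro u hu hu1
    have h2 : orderOf u ∣ 7 := by
      have := Subgroup.orderOf_dvd_natCard _ hu
      rwa [hP] at this
    rcases (Nat.dvd_prime (by norm_num)).1 h2 with h3 | h3
    · exact absurd (orderOf_eq_one_iff.1 h3) hu1
    · exact h3
  have hab : ∀ a ∈ (P : Subgroup G), ∀ b ∈ (P : Subgroup G), a * b = b * a := by
    intro a ha b hb
    have h1 := le_cen_self' hP ha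
    rw [mem_centralizer_iff] at h1
    exact (h1 b hb).symm
  have hinv : ∀ u ∈ (P : Subgroup G), t * u * t⁻¹ = u⁻¹ := by
    intro u hu
    apply inverts hab htt ht1 _ hu
    intro v hv hvt
    by_contra hv1
    have h1 := c7 h (ho7 v hv hv1)
    have h2 : t ∈ centralizer ({v} : Set G) := mem_centralizer_singleton_iff.2 hvt
    have h3 := Subgroup.orderOf_dvd_natCard _ h2
    rw [h1, ht2] at h3
    omega
  -- fixed point freeness
  have hfix : ∀ u ∈ (P : Subgroup G), ∀ p : G ⧸ M, Φ u p = p → u = 1 := by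
    intro u hu p hp
    by_contra hu1
    have h1 : orderOf (Φ u) = 7 := by rw [orderOf_injective Φ hinj]; exact ho7 u hu hu1
    obtain ⟨n, hn⟩ := Equiv.Perm.cycleType_prime_order (σ := Φ u) (by rw [h1]; norm_num)
    have h2 := (Φ u).sum_cycleType
    rw [hn, h1, Multiset.sum_replicate, smul_eq_mul] at h2
    have h3 := Finset.card_le_univ (Φ u).support
    rw [hc] at h3
    have h4 : (Φ u).support.card = Fintype.card (G ⧸ M) := by rw [hc]; omega
    have h5 := (Finset.card_eq_iff_eq_univ _).1 h4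
    have h6 : p ∈ (Φ u).support := by rw [h5]; exact Finset.mem_univ _
    exact (Equiv.Perm.mem_support.1 h6) hp
  have hσ2 : (Φ t) ^ 2 ^ 1 = 1 := by
    rw [pow_one, pow_two, ← map_mul, htt, map_one]
  obtain ⟨p, hp⟩ := Equiv.Perm.exists_fixed_point_of_prime (p := 2) (n := 1) (by rw [hc]; decide) hσ2
  have hbij : Function.Bijective (fun a : (P : Subgroup G) => Φ a p) := by
    rw [Nat.bijective_iff_injective_and_card]
    refine ⟨?_, by rw [hP, Nat.card_eq_fintype_card, hc]⟩
    intro a b hab'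
    have h1 : Φ ((b : G)⁻¹ * a) p = p := by
      have h2 : Φ (a : G) p = Φ (b : G) p := hab'
      rw [map_mul, Equiv.Perm.mul_apply, h2, ← Equiv.Perm.mul_apply, ← map_mul, inv_mul_cancel, map_one]
      rfl
    have h2 := hfix _ (mul_mem (inv_mem b.2) a.2) p h1
    exact Subtype.ext (inv_mul_eq_one.1 h2).symm
  have hone : ∀ q, Φ t q = q → q = p := by
    intro q hq
    obtain ⟨a, ha⟩ := hbij.2 q
    have ha' : Φ (a : G) p = q := ha
    have h1 : Φ t q = Φ (a : G)⁻¹ p := by
      rw [← ha', ← Equiv.Perm.mul_apply, ← map_mul]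
      have h2 : t * (a : G) = (a : G)⁻¹ * t := by
        rw [← hinv a a.2]; group
      rw [h2, map_mul, Equiv.Perm.mul_apply, hp]
    have h2 : Φ ((a : G) * a) p = p := by
      rw [map_mul, Equiv.Perm.mul_apply, ha', ← hq, h1, ← Equiv.Perm.mul_apply, ← map_mul, mul_inv_cancel, map_one]
      rfl
    have h3 := hfix _ (mul_mem a.2 a.2) p h2
    have h4 : (a : G) = 1 := by
      by_contra h5
      have h6 := ho7 a a.2 h5
      have h7 := orderOf_dvd_of_pow_eq_one (show (a : G) ^ 2 = 1 by rw [pow_two]; exact h3)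
      rw [h6] at h7
      omega
    rw [← ha', h4, map_one]
    rfl
  have hsupp : (Φ t).support = Finset.univ.erase p := by
    ext q
    rw [Equiv.Perm.mem_support, Finset.mem_erase]
    constructor
    · intro h1
      exact ⟨fun h2 => h1 (by rw [h2]; exact hp), Finset.mem_univ _⟩
    · rintro ⟨h1, -⟩ h2
      exact h1 (hone q h2)
  have hsc : (Φ t).support.card = 6 := by
    rw [hsupp, Finset.card_erase_of_mem (Finset.mem_univ _), Finset.card_univ, hc]
  have ho : orderOf (Φ t) = 2 := by rw [orderOf_injective Φ hinj]; exact ht2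
  obtain ⟨n, hn⟩ := Equiv.Perm.cycleType_prime_order (σ := Φ t) (by rw [ho]; norm_num)
  have h2 := (Φ t).sum_cycleType
  rw [hn, ho, Multiset.sum_replicate, smul_eq_mul, hsc] at h2
  have hn2 : n = 2 := by omega
  have hsign : Equiv.Perm.sign (Φ t) = -1 := by
    rw [Equiv.Perm.sign_of_cycleType, hn, ho, Multiset.sum_replicate, Multiset.card_replicate, hn2]
    rfl
  -- the sign character is trivial
  rcases (inferInstance : (Equiv.Perm.sign.comp Φ).ker.Normal).eq_bot_or_eq_top with h3 | h3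
  · have h4 := card_dvd_of_injective _ ((MonoidHom.ker_eq_bot_iff _).1 h3)
    rw [h] at h4
    have h5 : Nat.card ℤˣ = 2 := by rw [Nat.card_eq_fintype_card]; rfl
    rw [h5] at h4
    omega
  · have h4 : t ∈ (Equiv.Perm.sign.comp Φ).ker := by rw [h3]; trivial
    rw [MonoidHom.mem_ker, MonoidHom.comp_apply, hsign] at h4
    exact absurd h4 (by decide)

theorem idx_ge {M : Subgroup G} (hM : M ≠ ⊤) : Nat.card M < 72 := by
  by_contra hlt
  push Not at hlt
  have h1 := M.index_mul_card
  have h2 := dvd_fact M hM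
  have h4 : M.index ≠ 1 := fun h5 => hM (index_eq_one.1 h5)
  have h5 := no7 h M
  rw [h] at h1 h2
  have h3 : M.index ≤ 7 := by
    by_contra h6
    push Not at h6
    have : 8 * 72 ≤ M.index * Nat.card M := Nat.mul_le_mul h6 hlt
    omega
  revert h1 h2 h4 h5 h3
  generalize M.index = i
  generalize Nat.card M = n
  intro h1 h2 h4 h5 h3
  interval_cases i
  · omega
  · exact h4 rfl
  · revert h2; decide
  · revert h2; decide
  · revert h2; decide
  · revert h2; decide
  · revert h2; decide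
  · exact h5 rfl

end simple

end CfsgLib.O504
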