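import Cfsg.Statements.S0105
import Cfsg.Agent.LibTransAb

set_option autoImplicit false
open Cfsg

namespace Cfsg.Agent.S0105

/-- With an abelian Sylow p-subgroup P, some quotient of G is isomorphic to the part of P central in N_G(P). -/
theorem result {G : Type*} [Group G] [Finite G] {p : ℕ} [Fact p.Prime] (P : Sylow p G) (hP : IsMulCommutative P) : ∃ (N : Subgroup G) (hN : N.Normal), Nonempty (G ⧸ N ≃* ((P : Subgroup G) ⊓ Subgroup.centralizer (Subgroup.normalizer (P : Set G) : Set G) : Subgroup G)) := by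
  obtain ⟨N, hN⟩ : ∃ N, N = Subgroup.normalizer ((P : Subgroup G) : Set G) := ⟨_, rfl⟩
  have hPN : (P : Subgroup G) ≤ N := hN ▸ Subgroup.le_normalizer
  have hco : Nat.Coprime (Nat.card (P : Subgroup G)) ((P : Subgroup G).relIndex N) :=
    P.card_coprime_index.coprime_dvd_right (Subgroup.relIndex_dvd_index_of_le hPN)
  obtain ⟨h1, h2⟩ := CfsgLib.TransAb.rel_normal_hall_all (P : Subgroup G) N hPN hN.le hP hco
  have hf : (P : Subgroup G).focalSubgroup = ⁅(P : Subgroup G), N⁆ := by
    apply le_antisymm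
    · rw [hN]
      exact CfsgLib.TransFus.focal_le_of_controls
        (fun x g hx hgx => CfsgLib.TransFus.abelian_controls P hP x g hx hgx)
    · rw [← Subgroup.commutator_inf_eq_focalSubgroup]
      refine le_inf ?_ (CfsgLib.SolvCoprime.commutator_le_of_le_normalizer hN.le)
      rw [commutator_def]
      exact Subgroup.commutator_mono le_top le_top
  rw [← hf] at h1 h2
  refine ⟨(P : Subgroup G).transferFocal.ker, inferInstance, ?_⟩
  have e1 := Subgroup.transferFocal.quotientKerMulEquivQuotientFocalSubroupOf P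
  obtain ⟨W, hW⟩ : ∃ W, W = (P : Subgroup G) ⊓ Subgroup.centralizer (N : Set G) := ⟨_, rfl⟩
  have hWP : W ≤ (P : Subgroup G) := hW ▸ inf_le_left
  have hcompl : (W.subgroupOf (P : Subgroup G)).IsComplement' (P : Subgroup G).focalSubgroupOf := by
    have hd : W.subgroupOf (P : Subgroup G) ⊓ (P : Subgroup G).focalSubgroupOf = ⊥ := by
      rw [eq_bot_iff]
      rintro x hx
      obtain ⟨hx1, hx2⟩ := Subgroup.mem_inf.mp hx
      rw [Subgroup.mem_subgroupOf] at hx1
      rw [Subgroup.focalSubgroupOf_def, Subgroup.mem_subgroupOf] at hx2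
      have h3 : (x : G) ∈ (P : Subgroup G).focalSubgroup ⊓ Subgroup.centralizer (N : Set G) :=
        Subgroup.mem_inf.mpr ⟨hx2, by rw [hW] at hx1; exact (Subgroup.mem_inf.mp hx1).2⟩
      rw [h1, Subgroup.mem_bot] at h3
      exact Subgroup.mem_bot.mpr (Subtype.ext h3)
    have hs : W.subgroupOf (P : Subgroup G) ⊔ (P : Subgroup G).focalSubgroupOf = ⊤ := by
      apply Subgroup.map_injective (P : Subgroup G).subtype_injective
      rw [Subgroup.map_sup, Subgroup.map_subgroupOf_eq_of_le hWP, Subgroup.map_focalSubgroupOf,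
        ← MonoidHom.range_eq_map, Subgroup.range_subtype, sup_comm, hW]
      exact h2
    apply Subgroup.isComplement'_of_disjoint_and_mul_eq_univ
    · rw [disjoint_iff]; exact hd
    · rw [← Subgroup.mul_normal, hs, Subgroup.coe_top]
  have e2 := hcompl.QuotientMulEquiv
  have e3 := Subgroup.subgroupOfEquivOfLe hWP
  have e4 : (W : Subgroup G) ≃* ((P : Subgroup G) ⊓ Subgroup.centralizer (Subgroup.normalizer (P : Set G) : Set G) : Subgroup G) :=
    MulEquiv.subgroupCongr (by rw [hW, hN]; rfl)
  exact ⟨(e1.trans (e2.trans e3)).trans e4⟩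

end Cfsg.Agent.S0105
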