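import Mathlib
import Cfsg.Agent.LibO504a
import Cfsg.Agent.S0105

/-! Simple groups of order `504`: the Sylow 3- and 2-subgroups (seat helper15). -/

set_option autoImplicit false
set_option linter.all false

namespace CfsgLib.O504

open Subgroup MulAction CfsgLib.O168

universe u

section gen
variable {G : Type u} [Group G] [Finite G]

/-- counting in TI Sylow subgroups -/
theorem ti_count {p : ℕ} [hp : Fact p.Prime] {m : ℕ} (hsy : ∀ P : Sylow p G, Nat.card (P : Subgroup G) = m)
    (hTI : ∀ P Q : Sylow p G, ∀ x : G, x ≠ 1 → x ∈ (P : Subgroup G) → x ∈ (Q : Subgroup G) → P = Q) :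
    Nat.card {g : G // g ≠ 1 ∧ ∃ k, orderOf g = p ^ k} = Nat.card (Sylow p G) * (m - 1) := by
  classical
  have hex : ∀ g : {g : G // g ≠ 1 ∧ ∃ k, orderOf g = p ^ k}, ∃ P : Sylow p G, g.1 ∈ (P : Subgroup G) := by
    intro g
    obtain ⟨k, hk⟩ := g.2.2
    have hpg : IsPGroup p (zpowers g.1) := by
      rw [IsPGroup.iff_card]
      exact ⟨k, by rw [Nat.card_zpowers, hk]⟩
    obtain ⟨Q, hQ⟩ := hpg.exists_le_sylow
    exact ⟨Q, hQ (mem_zpowers g.1)⟩
  choose f hf using hex
  haveI := Fintype.ofFinite (Sylow p G)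
  rw [← Nat.card_congr (Equiv.sigmaFiberEquiv f), Nat.card_sigma]
  have h1 : ∀ P : Sylow p G, Nat.card {g // f g = P} = m - 1 := by
    intro P
    have h2 : Nat.card {x : (P : Subgroup G) // x ≠ 1} = m - 1 := by rw [card_ne_one, hsy P]
    rw [← h2]
    have hox : ∀ x : {x : (P : Subgroup G) // x ≠ 1}, (x.1.1 : G) ≠ 1 ∧ ∃ k, orderOf (x.1.1 : G) = p ^ k := by
      intro x
      refine ⟨fun h3 => x.2 (Subtype.ext h3), ?_⟩
      obtain ⟨k, hk⟩ := (IsPGroup.iff_orderOf.1 P.isPGroup') x.1
      exact ⟨k, by rw [Subgroup.orderOf_coe]; exact hk⟩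
    apply Nat.card_congr
    refine ⟨fun g => ⟨⟨g.1.1, ?_⟩, ?_⟩, fun x => ⟨⟨x.1.1, hox x⟩, ?_⟩, fun g => rfl, fun x => rfl⟩
    · have h5 := hf g.1
      rw [g.2] at h5
      exact h5
    · intro h3
      exact g.1.2.1 (congrArg Subtype.val h3)
    · exact hTI _ _ x.1.1 (hox x).1 (hf ⟨x.1.1, hox x⟩) x.1.2
  rw [Finset.sum_congr rfl (fun P _ => h1 P), Finset.sum_const, smul_eq_mul, Finset.card_univ, ← Nat.card_eq_fintype_card]

end gen

section simple
variable {G : Type u} [Group G] [Finite G] [hsimp : IsSimpleGroup G]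
variable (h : Nat.card G = 504)
include h

theorem card3 : Nat.card (Sylow 3 G) = 28 := by
  haveI : Fact (Nat.Prime 3) := ⟨by norm_num⟩
  obtain ⟨P⟩ : Nonempty (Sylow 3 G) := inferInstance
  have h1 := P.card_dvd_index
  have h2 := (P : Subgroup G).index_mul_card
  rw [s3 h, h] at h2
  have h3 : (P : Subgroup G).index = 56 := by omega
  rw [h3] at h1
  have hmod := card_sylow_modEq_one 3 G
  have hle := Nat.le_of_dvd (by norm_num) h1
  have h0 : 0 < Nat.card (Sylow 3 G) := Nat.card_pos
  have hne : Nat.card (Sylow 3 G) ≠ 1 := sylow_ne_one' (p := 3) (k := 2) (m := 56) (by decide) (by decide) (by rw [h]; rfl) (by decide)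
  have h4 := syl_index P
  have h5 : normalizer ((P : Subgroup G) : Set G) ≠ ⊤ := norm_ne_top' h (s3 h P) (by decide) (by decide)
  have h6 := idx_ge h h5
  have h7 := (normalizer ((P : Subgroup G) : Set G)).index_mul_card
  rw [← h4, h] at h7
  unfold Nat.ModEq at hmod
  revert h1 hmod hle h0 hne h6 h7
  generalize Nat.card (normalizer ((P : Subgroup G) : Set G)) = m
  generalize Nat.card (Sylow 3 G) = n
  intro h1 hmod hle h0 hne h6 h7
  interval_cases n <;> omega

theorem nm3 (P : Sylow 3 G) : Nat.card (normalizer ((P : Subgroup G) : Set G)) = 18 := by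
  haveI : Fact (Nat.Prime 3) := ⟨by norm_num⟩
  have h1 := syl_index P
  have h2 := (normalizer ((P : Subgroup G) : Set G)).index_mul_card
  rw [← h1, card3 h, h] at h2
  omega

theorem ab3 (P : Sylow 3 G) : ∀ a ∈ (P : Subgroup G), ∀ b ∈ (P : Subgroup G), a * b = b * a := by
  haveI : Fact (Nat.Prime 3) := ⟨by norm_num⟩
  intro a ha b hb
  have h1 := IsPGroup.isMulCommutative_of_card_eq_prime_sq (p := 3) (G := (P : Subgroup G)) (by rw [s3 h]; rfl)
  exact congrArg Subtype.val (h1.is_comm.comm (⟨a, ha⟩ : (P : Subgroup G)) ⟨b, hb⟩)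

/-- an involution inverting a Sylow 3-subgroup -/
theorem inv3 (P : Sylow 3 G) : ∃ s, orderOf s = 2 ∧ ∀ x ∈ (P : Subgroup G), s * x * s⁻¹ = x⁻¹ := by
  haveI : Fact (Nat.Prime 3) := ⟨by norm_num⟩
  haveI : Fact (Nat.Prime 2) := ⟨by norm_num⟩
  obtain ⟨s, hs1, hs2⟩ := prime_exists (p := 2) (H := normalizer ((P : Subgroup G) : Set G)) (by rw [nm3 h]; decide)
  refine ⟨s, hs2, ?_⟩
  have hss : s * s = 1 := by rw [← pow_two, ← hs2, pow_orderOf_eq_one]
  intro x hx
  apply inverts (ab3 h P) hss hs1 _ hx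
  intro u hu hus
  -- `u` is centralised by the normaliser
  have hsP : s ∉ (P : Subgroup G) := by
    intro h1
    have h2 := Subgroup.orderOf_dvd_natCard _ h1
    rw [s3 h, hs2] at h2
    omega
  have hidx : ((P : Subgroup G).subgroupOf (normalizer ((P : Subgroup G) : Set G))).index = 2 := by
    have h1 := relcard (le_normalizer (H := (P : Subgroup G)))
    rw [s3 h, nm3 h] at h1
    have h2 : (P : Subgroup G).relIndex (normalizer ((P : Subgroup G) : Set G)) = 2 := by omega
    exact h2
  have huC : u ∈ (P : Subgroup G) ⊓ centralizer (normalizer ((P : Subgroup G) : Set G) : Set G) := by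
    refine ⟨hu, ?_⟩
    show u ∈ centralizer (normalizer ((P : Subgroup G) : Set G) : Set G)
    rw [mem_centralizer_iff]
    intro g hg
    by_cases hgP : g ∈ (P : Subgroup G)
    · exact ab3 h P g hgP u hu
    · have h1 := (mul_mem_iff_of_index_two hidx (a := ⟨g, hg⟩) (b := ⟨s, hs1⟩)).2 (by
        rw [mem_subgroupOf, mem_subgroupOf]
        constructor
        · intro h4; exact absurd h4 hgP
        · intro h4; exact absurd h4 hsP)
      have h2 : g * s ∈ (P : Subgroup G) := mem_subgroupOf.1 h1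
      have h3 := ab3 h P _ h2 u hu
      have h4 : g * s * u = g * u * s := by rw [mul_assoc, hus, ← mul_assoc]
      rw [h4, ← mul_assoc] at h3
      exact mul_right_cancel h3
  have hcomm : IsMulCommutative (P : Subgroup G) := IsPGroup.isMulCommutative_of_card_eq_prime_sq (p := 3) (by rw [s3 h]; rfl)
  obtain ⟨N, hN, ⟨e⟩⟩ := Cfsg.Agent.S0105.result P hcomm
  rcases hN.eq_bot_or_eq_top with h1 | h1
  · exfalso
    have h2 := Nat.card_congr e.toEquiv
    have h3 : Nat.card (G ⧸ N) = 504 := by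
      have := N.index_mul_card
      rw [h1, card_bot, h] at this
      rw [h1]
      have h4 : (⊥ : Subgroup G).index = Nat.card (G ⧸ (⊥ : Subgroup G)) := rfl
      omega
    have h4 := card_dvd_of_le (inf_le_left : (P : Subgroup G) ⊓ centralizer (normalizer ((P : Subgroup G) : Set G) : Set G) ≤ (P : Subgroup G))
    have h5 : Nat.card ((P : Subgroup G) ⊓ centralizer (normalizer ((P : Subgroup G) : Set G) : Set G) : Subgroup G) = 504 := by
      rw [← h3]; exact h2.symm
    rw [h5, s3 h] at h4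
    omega
  · have h2 : Subsingleton (G ⧸ N) := by
      rw [h1]; exact QuotientGroup.subsingleton_quotient_top
    have h3 := e.symm.injective.subsingleton
    exact congrArg Subtype.val (h3.elim (⟨u, huC⟩ : ((P : Subgroup G) ⊓ centralizer (normalizer ((P : Subgroup G) : Set G) : Set G) : Subgroup G)) 1)

/-- Sylow 3-subgroups are TI -/
theorem ti3 (P Q : Sylow 3 G) (x : G) (hx : x ≠ 1) (hxP : x ∈ (P : Subgroup G)) (hxQ : x ∈ (Q : Subgroup G)) : P = Q := by
  haveI : Fact (Nat.Prime 3) := ⟨by norm_num⟩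
  by_contra hne
  obtain ⟨s, hs1, hs2⟩ := inv3 h P
  obtain ⟨K, hK⟩ : ∃ K, K = centralizer ({x} : Set G) := ⟨_, rfl⟩
  have hPK : (P : Subgroup G) ≤ K := by
    intro y hy
    rw [hK, mem_centralizer_singleton_iff]
    exact ab3 h P y hy x hxP
  have hQK : (Q : Subgroup G) ≤ K := by
    intro y hy
    rw [hK, mem_centralizer_singleton_iff]
    exact ab3 h Q y hy x hxQ
  have h36 : 36 ≤ Nat.card K := by
    have h1 := relIndex_inf_le (H := (P : Subgroup G)) (K := (Q : Subgroup G)) (L := K)
    have h2 := relcard hPK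
    have h3 := relcard hQK
    have h4 := relcard (inf_le_left.trans hPK : (P : Subgroup G) ⊓ (Q : Subgroup G) ≤ K)
    rw [s3 h] at h2 h3
    have h9 := card_dvd_of_le (inf_le_left : (P : Subgroup G) ⊓ (Q : Subgroup G) ≤ (P : Subgroup G))
    rw [s3 h] at h9
    have h10 : Nat.card ((P : Subgroup G) ⊓ (Q : Subgroup G) : Subgroup G) ≠ 9 := by
      intro h11
      have e1 := eq_of_le_of_card_ge (inf_le_left : (P : Subgroup G) ⊓ (Q : Subgroup G) ≤ (P : Subgroup G)) (by rw [h11, s3 h])
      have e2 := eq_of_le_of_card_ge (inf_le_right : (P : Subgroup G) ⊓ (Q : Subgroup G) ≤ (Q : Subgroup G)) (by rw [h11, s3 h])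
      exact hne (Sylow.ext (e1.symm.trans e2))
    have h11 := Nat.le_of_dvd (by norm_num) h9
    have h12 : Nat.card K ∣ 504 := by rw [← h]; exact card_subgroup_dvd_card K
    have h13 : (P : Subgroup G).relIndex K = (Q : Subgroup G).relIndex K := by omega
    rw [← h13] at h1
    by_contra hlt
    push Not at hlt
    have h14 : (P : Subgroup G).relIndex K ≤ 3 := by omega
    revert h1 h2 h4 h9 h10 h11 h12 h14
    generalize Nat.card ((P : Subgroup G) ⊓ (Q : Subgroup G) : Subgroup G) = n
    generalize ((P : Subgroup G) ⊓ (Q : Subgroup G)).relIndex K = i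
    generalize (P : Subgroup G).relIndex K = j
    generalize Nat.card K = k
    intro h1 h2 h4 h9 h10 h11 h12 h14
    have hn : n ≤ 3 := by
      interval_cases n <;> omega
    have hn0 : n ≠ 0 := by
      rintro rfl
      omega
    interval_cases j
    · rw [← h2] at h12; revert h12; decide
    · interval_cases n <;> omega
    · interval_cases n <;> omega
    · rw [← h2] at h12; revert h12; decide
  obtain ⟨L, hL⟩ : ∃ L, L = normalizer ((zpowers x : Subgroup G) : Set G) := ⟨_, rfl⟩
  have hKL : K ≤ L := by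
    rw [hK, hL, ← cen_zpowers']
    exact cen_le_norm' _
  have hsL : s ∈ L := by
    rw [hL, mem_normalizer_iff_map_conj_eq]
    apply eq_of_le_of_card_ge
    · rw [map_le_iff_le_comap, zpowers_le]
      show s * x * s⁻¹ ∈ zpowers x
      rw [hs2 x hxP]
      exact inv_mem (mem_zpowers x)
    · exact (Subgroup.card_map_of_injective (MulEquiv.injective _)).ge
  have hsK : s ∉ K := by
    intro h1
    rw [hK, mem_centralizer_singleton_iff] at h1
    have h2 := hs2 x hxP
    have h3 : x = x⁻¹ := by rw [← h2, h1]; group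
    have h4 : x * x = 1 := by
      nth_rw 2 [h3]
      exact mul_inv_cancel x
    have h5 := orderOf_dvd_of_pow_eq_one (show x ^ 2 = 1 by rw [pow_two]; exact h4)
    have h6 := Subgroup.orderOf_dvd_natCard _ hxP
    rw [s3 h] at h6
    have h7 := Nat.dvd_gcd h5 h6
    exact hx (orderOf_eq_one_iff.1 (Nat.dvd_one.1 h7))
  have hLt : L ≠ ⊤ := by
    intro h1
    rw [hL] at h1
    have h4 : (zpowers x).Normal := normalizer_eq_top_iff.1 h1
    rcases h4.eq_bot_or_eq_top with h5 | h5
    · exact hx (zpowers_eq_bot.1 h5)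
    · have h6 : zpowers x ≤ (P : Subgroup G) := by rwa [zpowers_le]
      rw [h5, top_le_iff] at h6
      exact ne_top_of' h (s3 h P) (by decide) h6
  have h1 := idx_ge h hLt
  have h2 := card_dvd_of_le hKL
  have h3 : Nat.card L ≠ Nat.card K := by
    intro h4
    apply hsK
    rw [eq_of_le_of_card_ge hKL h4.le]
    exact hsL
  obtain ⟨k, hk⟩ := h2
  have hL0 : 0 < Nat.card L := Nat.card_pos
  have hk2 : 2 ≤ k := by
    by_contra h4
    have : k = 0 ∨ k = 1 := by omega
    rcases this with rfl | rfl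
    · omega
    · rw [mul_one] at hk
      exact h3 hk
  have : 36 * 2 ≤ Nat.card K * k := Nat.mul_le_mul h36 hk2
  omega

theorem c3 {P : Sylow 3 G} {x : G} (hx : x ≠ 1) (hxP : x ∈ (P : Subgroup G)) : Nat.card (centralizer ({x} : Set G)) = 9 := by
  haveI : Fact (Nat.Prime 3) := ⟨by norm_num⟩
  obtain ⟨s, hs1, hs2⟩ := inv3 h P
  have h1 : centralizer ({x} : Set G) ≤ normalizer ((P : Subgroup G) : Set G) := by
    intro g hg
    rw [mem_centralizer_singleton_iff] at hg
    apply Sylow.smul_eq_iff_mem_normalizer.1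
    apply ti3 h _ _ x hx _ hxP
    rw [Sylow.coe_subgroup_smul]
    refine ⟨x, hxP, ?_⟩
    show g * x * g⁻¹ = x
    rw [hg]; group
  have h2 : (P : Subgroup G) ≤ centralizer ({x} : Set G) := by
    intro y hy
    rw [mem_centralizer_singleton_iff]
    exact ab3 h P y hy x hxP
  have h3 := card_dvd_of_le h1
  have h4 := card_dvd_of_le h2
  rw [nm3 h] at h3
  rw [s3 h] at h4
  have h5 : Nat.card (centralizer ({x} : Set G)) ≠ 18 := by
    intro h6
    have h7 : centralizer ({x} : Set G) = normalizer ((P : Subgroup G) : Set G) := eq_of_le_of_card_ge h1 (by rw [nm3 h, h6])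
    have h8 : s ∈ normalizer ((P : Subgroup G) : Set G) := by
      rw [mem_normalizer_iff_map_conj_eq]
      apply eq_of_le_of_card_ge
      · rintro _ ⟨y, hy, rfl⟩
        show s * y * s⁻¹ ∈ (P : Subgroup G)
        rw [hs2 y hy]
        exact inv_mem hy
      · exact (Subgroup.card_map_of_injective (MulEquiv.injective _)).ge
    rw [← h7, mem_centralizer_singleton_iff] at h8
    have h2 := hs2 x hxP
    have h3 : x = x⁻¹ := by rw [← h2, h8]; group
    have h4 : x * x = 1 := by
      nth_rw 2 [h3]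
      exact mul_inv_cancel x
    have h5 := orderOf_dvd_of_pow_eq_one (show x ^ 2 = 1 by rw [pow_two]; exact h4)
    have h6 := Subgroup.orderOf_dvd_natCard _ hxP
    rw [s3 h] at h6
    have h7 := Nat.dvd_gcd h5 h6
    exact hx (orderOf_eq_one_iff.1 (Nat.dvd_one.1 h7))
  have h6 := Nat.le_of_dvd (by norm_num) h3
  obtain ⟨k, hk⟩ := h4
  rw [hk] at h3 h5 h6 ⊢
  have : k ≤ 2 := by omega
  interval_cases k <;> omega

theorem cinv {t : G} (ht : orderOf t = 2) : Nat.card (centralizer ({t} : Set G)) ∣ 8 := by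
  haveI : Fact (Nat.Prime 3) := ⟨by norm_num⟩
  haveI : Fact (Nat.Prime 7) := ⟨by norm_num⟩
  have h3 : ¬ 3 ∣ Nat.card (centralizer ({t} : Set G)) := by
    intro h3
    obtain ⟨x, hx1, hx2⟩ := prime_exists h3
    have hpg : IsPGroup 3 (zpowers x) := by
      rw [IsPGroup.iff_card]
      exact ⟨1, by rw [Nat.card_zpowers, hx2, pow_one]⟩
    obtain ⟨P, hP⟩ := hpg.exists_le_sylow
    have hx0 : x ≠ 1 := by
      rintro rfl
      rw [orderOf_one] at hx2
      omega
    have h4 : t ∈ centralizer ({x} : Set G) := mem_centralizer_singleton_iff.2 (mem_centralizer_singleton_iff.1 hx1).symm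
    have h5 := Subgroup.orderOf_dvd_natCard _ h4
    rw [c3 h hx0 (hP (mem_zpowers x)), ht] at h5
    omega
  have h7 : ¬ 7 ∣ Nat.card (centralizer ({t} : Set G)) := by
    intro h3
    obtain ⟨x, hx1, hx2⟩ := prime_exists h3
    have h4 : t ∈ centralizer ({x} : Set G) := mem_centralizer_singleton_iff.2 (mem_centralizer_singleton_iff.1 hx1).symm
    have h5 := Subgroup.orderOf_dvd_natCard _ h4
    rw [c7 h hx2, ht] at h5
    omega
  have h1 : Nat.card (centralizer ({t} : Set G)) ∣ 8 * 63 := by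
    have := card_subgroup_dvd_card (centralizer ({t} : Set G))
    rwa [h] at this
  apply Nat.Coprime.dvd_of_dvd_mul_right _ h1
  have h2 := ((Nat.Prime.coprime_iff_not_dvd (p := 3) (by norm_num)).2 h3).symm
  have h4 := ((Nat.Prime.coprime_iff_not_dvd (p := 7) (by norm_num)).2 h7).symm
  have h5 : (63 : ℕ) = 3 * 3 * 7 := by norm_num
  rw [h5]
  exact Nat.Coprime.mul_right (Nat.Coprime.mul_right h2 h2) h4

end simple

end CfsgLib.O504
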