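import Mathlib
import Cfsg.Agent.LibO504b

/-! Simple groups of order `504`: sharp triple transitivity (seat helper15). -/

set_option autoImplicit false
set_option linter.all false

namespace CfsgLib.O504

open Subgroup MulAction CfsgLib.O168

universe u

section gen
variable {G : Type u} [Finite G]

theorem sum_fib {f : G → ℕ} {m : ℕ} (hf : ∀ g, f g < m) : ∑ i ∈ Finset.range m, Nat.card {g // f g = i} = Nat.card G := by
  classical
  haveI := Fintype.ofFinite G
  have h1 := Finset.card_eq_sum_card_fiberwise (f := f) (s := Finset.univ) (t := Finset.range m) (by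
    intro g _
    exact Finset.mem_coe.2 (Finset.mem_range.2 (hf g)))
  rw [Nat.card_eq_fintype_card, ← Finset.card_univ, h1]
  apply Finset.sum_congr rfl
  intro i _
  rw [Nat.card_eq_fintype_card, Fintype.card_subtype]

end gen

section simple
variable {G : Type u} [Group G] [Finite G] [hsimp : IsSimpleGroup G]
variable (h : Nat.card G = 504)
include h

theorem cnt3 : Nat.card {g : G // g ≠ 1 ∧ ∃ k, orderOf g = 3 ^ k} = 224 := by
  haveI : Fact (Nat.Prime 3) := ⟨by norm_num⟩
  rw [ti_count (s3 h) (fun P Q x hx hxP hxQ => ti3 h P Q x hx hxP hxQ), card3 h]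

theorem cnt7 : Nat.card {g : G // orderOf g = 7} = 216 := by
  haveI : Fact (Nat.Prime 7) := ⟨by norm_num⟩
  rw [syl_count (s7 h), card7 h]

theorem exists_z : ∃ z : G, orderOf z = 2 ∧ Nat.card (centralizer ({z} : Set G)) = 8 := by
  haveI : Fact (Nat.Prime 2) := ⟨by norm_num⟩
  obtain ⟨P⟩ : Nonempty (Sylow 2 G) := inferInstance
  haveI : Nontrivial (P : Subgroup G) := by
    rw [← Finite.one_lt_card_iff_nontrivial, s2 h]; decide
  haveI := P.isPGroup'.center_nontrivial
  have h1 : IsPGroup 2 (center (P : Subgroup G)) := P.isPGroup'.to_subgroup _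
  obtain ⟨n, hn⟩ := IsPGroup.iff_card.1 h1
  have hn0 : n ≠ 0 := by
    rintro rfl
    rw [pow_zero] at hn
    have := Finite.one_lt_card_iff_nontrivial.2 (inferInstance : Nontrivial (center (P : Subgroup G)))
    omega
  obtain ⟨z, hz1, hz2⟩ := prime_exists (p := 2) (H := center (P : Subgroup G)) (by rw [hn]; exact dvd_pow_self 2 hn0)
  refine ⟨z, by rw [Subgroup.orderOf_coe]; exact hz2, ?_⟩
  have h2 : (P : Subgroup G) ≤ centralizer ({(z : G)} : Set G) := by
    intro y hy
    rw [mem_centralizer_singleton_iff]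
    exact congrArg Subtype.val (mem_center_iff.1 hz1 ⟨y, hy⟩)
  have h3 := card_dvd_of_le h2
  rw [s2 h] at h3
  have h4 := cinv h (t := (z : G)) (by rw [Subgroup.orderOf_coe]; exact hz2)
  exact Nat.dvd_antisymm h4 h3

/-- classification of the elements -/
theorem elts : (∀ g : G, g = 1 ∨ orderOf g = 2 ∨ orderOf g = 7 ∨ ∃ k, orderOf g = 3 ^ k) ∧ Nat.card {g : G // orderOf g = 2} = 63 := by
  classical
  let f : G → ℕ := fun g => if g = 1 then 0 else if orderOf g = 2 then 1 else if orderOf g = 7 then 2 else if (∃ k, orderOf g = 3 ^ k) then 3 else 4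
  have hf : ∀ g, f g < 5 := by
    intro g
    simp only [f]
    split_ifs <;> omega
  have hs := sum_fib hf
  rw [h] at hs
  have e0 : Nat.card {g // f g = 0} = 1 := by
    rw [Nat.card_eq_one_iff_unique]
    refine ⟨⟨?_⟩, ⟨⟨1, by simp [f]⟩⟩⟩
    have key : ∀ g, f g = 0 → g = 1 := by
      intro g hg
      by_contra h1
      simp only [f, if_neg h1] at hg
      split_ifs at hg <;> omega
    intro a b
    exact Subtype.ext ((key _ a.2).trans (key _ b.2).symm)
  have not1 : ∀ {g : G} {n : ℕ}, orderOf g = n → n ≠ 1 → g ≠ 1 := by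
    rintro g n h1 h2 rfl
    rw [orderOf_one] at h1
    exact h2 h1.symm
  have e1 : Nat.card {g // f g = 1} = Nat.card {g : G // orderOf g = 2} := by
    apply Nat.card_congr
    apply Equiv.subtypeEquivRight
    intro g
    constructor
    · intro hg
      by_contra h1
      simp only [f, if_neg h1] at hg
      split_ifs at hg <;> omega
    · intro hg
      simp only [f, if_neg (not1 hg (by decide)), if_pos hg]
  have e2 : Nat.card {g // f g = 2} = Nat.card {g : G // orderOf g = 7} := by
    apply Nat.card_congr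
    apply Equiv.subtypeEquivRight
    intro g
    constructor
    · intro hg
      by_contra h1
      simp only [f, if_neg h1] at hg
      split_ifs at hg <;> omega
    · intro hg
      have h2 : ¬ orderOf g = 2 := by omega
      simp only [f, if_neg (not1 hg (by decide)), if_neg h2, if_pos hg]
  have e3 : Nat.card {g // f g = 3} = Nat.card {g : G // g ≠ 1 ∧ ∃ k, orderOf g = 3 ^ k} := by
    apply Nat.card_congr
    apply Equiv.subtypeEquivRight
    intro g
    constructor
    · intro hg
      refine ⟨?_, ?_⟩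
      · intro h1
        simp only [f, if_pos h1] at hg
        omega
      · by_contra h1
        simp only [f, if_neg h1] at hg
        split_ifs at hg <;> omega
    · rintro ⟨h1, k, hk⟩
      have h2 : ¬ orderOf g = 2 := by
        intro h3
        rw [hk] at h3
        have h4 : k ≠ 0 := by rintro rfl; simp at h3
        have : 3 ∣ 3 ^ k := dvd_pow_self 3 h4
        omega
      have h5 : ¬ orderOf g = 7 := by
        intro h3
        rw [hk] at h3
        have h4 : k ≠ 0 := by rintro rfl; simp at h3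
        have : 3 ∣ 3 ^ k := dvd_pow_self 3 h4
        omega
      have h6 : ∃ k, orderOf g = 3 ^ k := ⟨k, hk⟩
      simp only [f, if_neg h1, if_neg h2, if_neg h5, if_pos h6]
  rw [Finset.sum_range_succ, Finset.sum_range_succ, Finset.sum_range_succ, Finset.sum_range_succ, Finset.sum_range_succ, Finset.sum_range_zero,
    e0, e1, e2, e3, cnt7 h, cnt3 h] at hs
  obtain ⟨z, hz1, hz2⟩ := exists_z h
  have h1 := card_class z
  rw [hz2, h] at h1
  have h2 := class_le hz1
  have h3 : Nat.card {g : G // orderOf g = 2} = 63 := by omega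
  refine ⟨?_, h3⟩
  intro g
  have h4 : Nat.card {g // f g = 4} = 0 := by omega
  by_contra hcon
  push Not at hcon
  have h5 : f g = 4 := by
    have h6 : ¬ ∃ k, orderOf g = 3 ^ k := by
      rintro ⟨k, hk⟩
      exact hcon.2.2.2 k hk
    simp only [f, if_neg hcon.1, if_neg hcon.2.1, if_neg hcon.2.2.1, if_neg h6]
  haveI : Nonempty {g // f g = 4} := ⟨⟨g, h5⟩⟩
  have : 0 < Nat.card {g // f g = 4} := Nat.card_pos
  omega

theorem c2 {t : G} (ht : orderOf t = 2) : Nat.card (centralizer ({t} : Set G)) = 8 := by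
  obtain ⟨z, hz1, hz2⟩ := exists_z h
  have h1 := card_class z
  rw [hz2, h] at h1
  have h2 : IsConj z t := class_full hz1 (by rw [(elts h).2]; omega) ht
  obtain ⟨c, hc⟩ := isConj_iff.1 h2
  have h3 : centralizer ({t} : Set G) = (centralizer ({z} : Set G)).map (MulAut.conj c).toMonoidHom := by
    ext x
    rw [mem_centralizer_singleton_iff, mem_map]
    constructor
    · intro hx
      refine ⟨c⁻¹ * x * c, ?_, ?_⟩
      · rw [mem_centralizer_singleton_iff]
        have e : z = c⁻¹ * t * c := by rw [← hc]; group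
        rw [e]
        calc c⁻¹ * x * c * (c⁻¹ * t * c) = c⁻¹ * (x * t) * c := by group
          _ = c⁻¹ * (t * x) * c := by rw [hx]
          _ = _ := by group
      · show c * (c⁻¹ * x * c) * c⁻¹ = x
        group
    · rintro ⟨y, hy, rfl⟩
      rw [mem_centralizer_singleton_iff] at hy
      show c * y * c⁻¹ * t = t * (c * y * c⁻¹)
      rw [← hc]
      calc c * y * c⁻¹ * (c * z * c⁻¹) = c * (y * z) * c⁻¹ := by group
        _ = c * (z * y) * c⁻¹ := by rw [hy]
        _ = _ := by group
  rw [h3, Subgroup.card_map_of_injective (MulEquiv.injective _), hz2]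

theorem ord2 (P : Sylow 2 G) {x : G} (hx : x ≠ 1) (hxP : x ∈ (P : Subgroup G)) : orderOf x = 2 := by
  have h1 := Subgroup.orderOf_dvd_natCard _ hxP
  rw [s2 h] at h1
  rcases (elts h).1 x with h2 | h2 | h2 | ⟨k, hk⟩
  · exact absurd h2 hx
  · exact h2
  · rw [h2] at h1; omega
  · exfalso
    rw [hk] at h1
    have h4 : k ≠ 0 := by
      rintro rfl
      rw [pow_zero, orderOf_eq_one_iff] at hk
      exact hx hk
    have h5 : 3 ∣ 8 := (dvd_pow_self 3 h4).trans h1
    omega

theorem ab2 (P : Sylow 2 G) : ∀ a ∈ (P : Subgroup G), ∀ b ∈ (P : Subgroup G), a * b = b * a := by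
  intro a ha b hb
  apply sq_comm (U := (P : Subgroup G)) _ ha hb
  intro g hg
  by_cases h1 : g = 1
  · rw [h1, one_mul]
  · rw [← pow_two, ← ord2 h P h1 hg, pow_orderOf_eq_one]

theorem cP (P : Sylow 2 G) {x : G} (hx : x ≠ 1) (hxP : x ∈ (P : Subgroup G)) : centralizer ({x} : Set G) = (P : Subgroup G) := by
  symm
  apply eq_of_le_of_card_ge
  · intro y hy
    rw [mem_centralizer_singleton_iff]
    exact ab2 h P y hy x hxP
  · rw [c2 h (ord2 h P hx hxP), s2 h]

theorem ti2 (P Q : Sylow 2 G) (x : G) (hx : x ≠ 1) (hxP : x ∈ (P : Subgroup G)) (hxQ : x ∈ (Q : Subgroup G)) : P = Q := by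
  apply Sylow.ext
  rw [← cP h P hx hxP, ← cP h Q hx hxQ]

theorem card2 : Nat.card (Sylow 2 G) = 9 := by
  haveI : Fact (Nat.Prime 2) := ⟨by norm_num⟩
  have h1 := ti_count (s2 h) (fun P Q x hx hxP hxQ => ti2 h P Q x hx hxP hxQ)
  have h2 : Nat.card {g : G // g ≠ 1 ∧ ∃ k, orderOf g = 2 ^ k} = 63 := by
    rw [← (elts h).2]
    apply Nat.card_congr
    apply Equiv.subtypeEquivRight
    intro g
    constructor
    · rintro ⟨hg, k, hk⟩
      have hpg : IsPGroup 2 (zpowers g) := by
        rw [IsPGroup.iff_card]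
        exact ⟨k, by rw [Nat.card_zpowers, hk]⟩
      obtain ⟨Q, hQ⟩ := hpg.exists_le_sylow
      exact ord2 h Q hg (hQ (mem_zpowers g))
    · intro hg
      refine ⟨?_, 1, by rw [hg, pow_one]⟩
      rintro rfl
      rw [orderOf_one] at hg
      omega
  rw [h2] at h1
  omega

theorem nm2 (P : Sylow 2 G) : Nat.card (normalizer ((P : Subgroup G) : Set G)) = 56 := by
  haveI : Fact (Nat.Prime 2) := ⟨by norm_num⟩
  have h1 := syl_index P
  have h2 := (normalizer ((P : Subgroup G) : Set G)).index_mul_card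
  rw [← h1, card2 h, h] at h2
  omega

/-- an element of a Sylow 2-subgroup fixing another one is trivial -/
theorem free2 {P Q : Sylow 2 G} (hPQ : P ≠ Q) {a : G} (ha : a ∈ (P : Subgroup G)) (haQ : a • Q = Q) : a = 1 := by
  haveI : Fact (Nat.Prime 2) := ⟨by norm_num⟩
  by_contra h1
  have h2 := ord2 h P h1 ha
  have h3 : a ∈ normalizer ((Q : Subgroup G) : Set G) := Sylow.smul_eq_iff_mem_normalizer.1 haQ
  have h4 := mem_syl Q (n := 1) (by rw [h2, pow_one]) h3
  exact hPQ (ti2 h P Q a h1 ha h4)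

/-- transitivity of a Sylow 2-subgroup on the others -/
theorem reg2 {P Q R : Sylow 2 G} (hPQ : P ≠ Q) (hPR : P ≠ R) : ∃ u ∈ (P : Subgroup G), u • Q = R := by
  haveI : Fact (Nat.Prime 2) := ⟨by norm_num⟩
  have hPfix : ∀ a ∈ (P : Subgroup G), a • P = P := fun a ha => Sylow.smul_eq_iff_mem_normalizer.2 (le_normalizer ha)
  have hbij : Function.Bijective (fun a : (P : Subgroup G) => (⟨(a : G) • Q, by
      intro h1
      apply hPQ
      have h2 := hPfix a a.2
      exact (smul_left_cancel (a : G) (h1.trans h2.symm)).symm⟩ : {Q : Sylow 2 G // Q ≠ P})) := by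
    rw [Nat.bijective_iff_injective_and_card]
    refine ⟨?_, by rw [s2 h, card_ne_one, card2 h]⟩
    intro a b hab
    have h1 : (a : G) • Q = (b : G) • Q := congrArg Subtype.val hab
    have h2 := free2 h hPQ (a := (b : G)⁻¹ * a) (mul_mem (inv_mem b.2) a.2) (by rw [mul_smul, h1, inv_smul_smul])
    exact Subtype.ext (inv_mul_eq_one.1 h2).symm
  obtain ⟨u, hu⟩ := hbij.2 ⟨R, hPR.symm⟩
  exact ⟨u, u.2, congrArg Subtype.val hu⟩

theorem sharp {g : G} {A B C : Sylow 2 G} (hAB : A ≠ B) (hAC : A ≠ C) (hBC : B ≠ C) (hA : g • A = A) (hB : g • B = B) (hC : g • C = C) : g = 1 := by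
  haveI : Fact (Nat.Prime 2) := ⟨by norm_num⟩
  by_contra hg
  have hN : g ∈ normalizer ((A : Subgroup G) : Set G) := Sylow.smul_eq_iff_mem_normalizer.1 hA
  have h56 := Subgroup.orderOf_dvd_natCard _ hN
  rw [nm2 h] at h56
  rcases (elts h).1 g with h1 | h1 | h1 | ⟨k, hk⟩
  · exact hg h1
  · have h4 := mem_syl A (n := 1) (by rw [h1, pow_one]) hN
    exact hg (free2 h hAB h4 hB)
  · obtain ⟨u, hu, huB⟩ := reg2 h hAB hAC
    have hu1 : u ≠ 1 := by
      rintro rfl
      rw [one_smul] at huB
      exact hBC huB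
    have h2 : g * u * g⁻¹ ∈ (A : Subgroup G) := (mem_normalizer_iff.1 hN u).1 hu
    have hgi : g⁻¹ • B = B := by rw [inv_smul_eq_iff]; exact hB.symm
    have h3 : (u⁻¹ * (g * u * g⁻¹)) • B = B := by
      rw [mul_smul, mul_smul, mul_smul, hgi, huB, hC, ← huB, inv_smul_smul]
    have h4 := free2 h hAB (mul_mem (inv_mem hu) h2) h3
    have h5 : u = g * u * g⁻¹ := inv_mul_eq_one.1 h4
    have h6 : u * g = g * u := by nth_rw 1 [h5]; group
    have h7 : u ∈ centralizer ({g} : Set G) := mem_centralizer_singleton_iff.2 h6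
    have h8 := Subgroup.orderOf_dvd_natCard _ h7
    rw [c7 h h1, ord2 h A hu1 hu] at h8
    omega
  · rw [hk] at h56
    have h4 : k ≠ 0 := by
      rintro rfl
      rw [pow_zero, orderOf_eq_one_iff] at hk
      exact hg hk
    have h5 : 3 ∣ 56 := (dvd_pow_self 3 h4).trans h56
    omega

theorem trans3 (A B C A' B' C' : Sylow 2 G) (hAB : A ≠ B) (hAC : A ≠ C) (hBC : B ≠ C) (hAB' : A' ≠ B') (hAC' : A' ≠ C') (hBC' : B' ≠ C') :
    ∃ g : G, g • A = A' ∧ g • B = B' ∧ g • C = C' := by
  classical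
  haveI : Fact (Nat.Prime 2) := ⟨by norm_num⟩
  have emb : ∀ a b c : Sylow 2 G, a ≠ b → a ≠ c → b ≠ c → ∃ e : Fin 3 ↪ Sylow 2 G, e 0 = a ∧ e 1 = b ∧ e 2 = c := by
    intro a b c hab hac hbc
    refine ⟨⟨![a, b, c], ?_⟩, rfl, rfl, rfl⟩
    intro i j hij
    fin_cases i <;> fin_cases j <;> simp_all [eq_comm]
  obtain ⟨e, e0, e1, e2⟩ := emb A B C hAB hAC hBC
  obtain ⟨e', e0', e1', e2'⟩ := emb A' B' C' hAB' hAC' hBC'
  let Ψ : G → (Fin 3 ↪ Sylow 2 G) := fun g => ⟨fun i => g • e i, fun i j hij => e.injective (smul_left_cancel g hij)⟩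
  have hbij : Function.Bijective Ψ := by
    rw [Nat.bijective_iff_injective_and_card]
    constructor
    · intro g g' hgg
      have h1 : ∀ i, g • e i = g' • e i := fun i => congrArg (fun k : Fin 3 ↪ Sylow 2 G => k i) hgg
      have h2 : ∀ i, (g'⁻¹ * g) • e i = e i := fun i => by rw [mul_smul, h1, inv_smul_smul]
      have h3 := sharp h hAB hAC hBC (g := g'⁻¹ * g) (by rw [← e0]; exact h2 0) (by rw [← e1]; exact h2 1) (by rw [← e2]; exact h2 2)
      exact (inv_mul_eq_one.1 h3).symm
    · haveI := Fintype.ofFinite (Sylow 2 G)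
      have hc : Fintype.card (Sylow 2 G) = 9 := by rw [← Nat.card_eq_fintype_card]; exact card2 h
      rw [h, Nat.card_eq_fintype_card, Fintype.card_embedding_eq, hc, Fintype.card_fin]
      rfl
  obtain ⟨g, hg⟩ := hbij.2 e'
  have h1 : ∀ i, g • e i = e' i := fun i => congrArg (fun k : Fin 3 ↪ Sylow 2 G => k i) hg
  exact ⟨g, by rw [← e0, h1, e0'], by rw [← e1, h1, e1'], by rw [← e2, h1, e2']⟩

end simple

end CfsgLib.O504
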