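import Cfsg.Agent.LibUnipB

set_option autoImplicit false

/-! orders of parabolic subgroups -/

namespace CfsgLib.Unip

open Finset Cfsg Matrix

open scoped MatrixGroups

/-- q-integer `1+q+...+q^(r-1)` -/
def qi (q r : ℕ) : ℕ := ∑ l ∈ Finset.range r, q ^ l

/-- q-factorial -/
def qf (q r : ℕ) : ℕ := ∏ j ∈ Finset.range r, qi q (j + 1)

theorem qi_mul (q r : ℕ) (hq : 1 ≤ q) : (q - 1) * qi q r = q ^ r - 1 := by
  have h : (q - 1) * qi q r + 1 = q ^ r := by
    obtain ⟨t, rfl⟩ : ∃ t, q = t + 1 := ⟨q - 1, by omega⟩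
    rw [Nat.add_sub_cancel]
    induction r with
    | zero => simp [qi]
    | succ r ih =>
      have : qi (t + 1) (r + 1) = qi (t + 1) r + (t + 1) ^ r := Finset.sum_range_succ _ _
      rw [this, pow_succ, mul_add]
      nlinarith
  omega

theorem gl_card (q m : ℕ) (hq : 1 ≤ q) :
    ∏ i : Fin m, (q ^ m - q ^ i.val) = q ^ (∑ k ∈ Finset.range m, k) * (q - 1) ^ m * qf q m := by
  rw [Fin.prod_univ_eq_prod_range (fun i => q ^ m - q ^ i) m]
  have h1 : ∀ k ∈ Finset.range m, q ^ m - q ^ k = q ^ k * (q ^ (m - k) - 1) := by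
    intro k hk
    rw [Finset.mem_range] at hk
    rw [Nat.mul_sub, mul_one, ← pow_add]
    congr 2
    omega
  rw [Finset.prod_congr rfl h1, Finset.prod_mul_distrib, Finset.prod_pow_eq_pow_sum, mul_assoc]
  congr 1
  have h2 : ∏ k ∈ Finset.range m, (q ^ (m - k) - 1) = ∏ j ∈ Finset.range m, (q ^ (j + 1) - 1) := by
    rw [← Finset.prod_range_reflect]
    apply Finset.prod_congr rfl
    intro k hk
    rw [Finset.mem_range] at hk
    congr 2
    omega
  rw [h2]
  unfold qf
  rw [← Finset.card_range m, ← Finset.prod_const, Finset.card_range, ← Finset.prod_mul_distrib]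
  apply Finset.prod_congr rfl
  intro k _
  rw [qi_mul _ _ hq]

section

variable {F : Type*} [Field F] [Fintype F]

theorem card_det {ι : Type*} [Fintype ι] [DecidableEq ι] :
    Nat.card {N : Matrix ι ι F // N.det ≠ 0} =
      ∏ i : Fin (Fintype.card ι), (Fintype.card F ^ Fintype.card ι - Fintype.card F ^ i.val) := by
  have h1 := Matrix.card_GL_field (𝔽 := F) (Fintype.card ι)
  rw [← h1]
  apply Nat.card_congr
  let e := Fintype.equivFin ι
  refine ⟨fun N => Matrix.GeneralLinearGroup.mkOfDetNeZero (Matrix.reindex e e N.1) (by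
    rw [Matrix.det_reindex_self]; exact N.2), fun g => ⟨(Matrix.reindex e e).symm (g : Matrix _ _ F), by
    rw [Matrix.reindex_symm, Matrix.det_reindex_self]
    have : IsUnit (g.val).det := (Matrix.isUnit_iff_isUnit_det g.val).mp g.isUnit
    exact this.ne_zero⟩, ?_, ?_⟩
  · intro N
    apply Subtype.ext
    exact (Matrix.reindex e e).symm_apply_apply N.1
  · intro g
    apply Units.ext
    exact (Matrix.reindex e e).apply_symm_apply _

theorem card_parabolic_aux {n : ℕ} (μ : Fin n → ℕ) (h : ∑ i, μ i = n) :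
    Nat.card (parabolicGL n F μ) =
      (∏ a : Fin n, Nat.card {N : Matrix {i // compLabel μ i = a.val} {i // compLabel μ i = a.val} F // N.det ≠ 0}) *
        Fintype.card F ^ (univ.filter fun p : Fin n × Fin n => compLabel μ p.1 < compLabel μ p.2).card := by
  classical
  let b := compLabel μ
  have hb : ∀ i, b i < n := compLabel_lt μ h
  have hdet : ∀ M : Matrix (Fin n) (Fin n) F, M.BlockTriangular b →
      (M.det ≠ 0 ↔ ∀ a : Fin n, (M.toSquareBlock b a.val).det ≠ 0) := by
    intro M hM
    rw [Matrix.BlockTriangular.det hM, Finset.prod_ne_zero_iff]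
    constructor
    · intro h1 a
      by_cases ha : a.val ∈ univ.image b
      · exact h1 _ ha
      · have : IsEmpty {i // b i = a.val} := ⟨fun i => ha (by
          rw [Finset.mem_image]; exact ⟨i.1, mem_univ _, i.2⟩)⟩
        rw [Matrix.det_isEmpty]
        exact one_ne_zero
    · intro h1 a ha
      obtain ⟨i, _, rfl⟩ := Finset.mem_image.mp ha
      exact h1 ⟨b i, hb i⟩
  have e1 : (parabolicGL n F μ) ≃ {M : Matrix (Fin n) (Fin n) F // M.BlockTriangular b ∧ M.det ≠ 0} :=
    ⟨fun g => ⟨(g.1 : Matrix (Fin n) (Fin n) F), g.2, ((Matrix.isUnit_iff_isUnit_det _).mp g.1.isUnit).ne_zero⟩,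
      fun M => ⟨Matrix.GeneralLinearGroup.mkOfDetNeZero M.1 M.2.2, M.2.1⟩,
      fun g => Subtype.ext (Units.ext rfl), fun M => Subtype.ext rfl⟩
  have e2 : {M : Matrix (Fin n) (Fin n) F // M.BlockTriangular b ∧ M.det ≠ 0} ≃
      ((∀ a : Fin n, {N : Matrix {i // b i = a.val} {i // b i = a.val} F // N.det ≠ 0}) ×
        ({p : Fin n × Fin n // b p.1 < b p.2} → F)) := by
    let mk : ((∀ a : Fin n, {N : Matrix {i // b i = a.val} {i // b i = a.val} F // N.det ≠ 0}) ×
        ({p : Fin n × Fin n // b p.1 < b p.2} → F)) → Matrix (Fin n) (Fin n) F := fun D i j =>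
      if h1 : b i = b j then (D.1 ⟨b j, hb j⟩).1 ⟨i, h1⟩ ⟨j, rfl⟩ else if h2 : b i < b j then D.2 ⟨(i, j), h2⟩ else 0
    have hmk1 : ∀ D, (mk D).BlockTriangular b := by
      intro D i j hij
      have h1 : ¬ b i = b j := (ne_of_lt hij).symm
      have h2 : ¬ b i < b j := not_lt.mpr hij.le
      simp [mk, h1, h2]
    have hmk2 : ∀ D (a : Fin n), (mk D).toSquareBlock b a.val = (D.1 a).1 := by
      intro D a
      ext ⟨i, hi⟩ ⟨j, hj⟩
      obtain ⟨a, ha⟩ := a
      simp only at hi hj
      subst hj
      change mk D i j = _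
      simp only [mk]
      rw [dif_pos hi]
    refine ⟨fun M => (fun a => ⟨M.1.toSquareBlock b a.val, (hdet M.1 M.2.1).mp M.2.2 a⟩, fun p => M.1 p.1.1 p.1.2),
      fun D => ⟨mk D, hmk1 D, (hdet _ (hmk1 D)).mpr fun a => by rw [hmk2]; exact (D.1 a).2⟩, ?_, ?_⟩
    · intro M
      apply Subtype.ext
      ext i j
      show mk _ i j = M.1 i j
      by_cases h1 : b i = b j
      · simp [mk, h1, Matrix.toSquareBlock_def]
      · by_cases h2 : b i < b j
        · simp [mk, h1, h2]
        · have := M.2.1 (lt_of_le_of_ne (not_lt.mp h2) (Ne.symm h1))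
          simp [mk, h1, h2, this]
    · intro D
      apply Prod.ext
      · funext a
        exact Subtype.ext (hmk2 D a)
      · funext p
        have h1 : ¬ b p.1.1 = b p.1.2 := ne_of_lt p.2
        simp [mk, h1, p.2]
  rw [Nat.card_congr (e1.trans e2), Nat.card_prod, Nat.card_pi]
  congr 1
  rw [Nat.card_eq_fintype_card, Fintype.card_fun, Fintype.card_subtype]

theorem pair_count {n : ℕ} (μ : Fin n → ℕ) (h : ∑ i, μ i = n) :
    (∑ a, ∑ k ∈ Finset.range (μ a), k) +
      (univ.filter fun p : Fin n × Fin n => compLabel μ p.1 < compLabel μ p.2).card = ∑ k ∈ Finset.range n, k := by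
  classical
  set b := compLabel μ with hb
  have hlt : (univ.filter fun p : Fin n × Fin n => b p.1 < b p.2).card = (univ.filter fun p : Fin n × Fin n => b p.2 < b p.1).card := by
    refine Finset.card_bij' (fun p _ => (p.2, p.1)) (fun p _ => (p.2, p.1)) ?_ ?_ ?_ ?_
    · intro p hp; simpa using hp
    · intro p hp; simpa using hp
    · intro p hp; rfl
    · intro p hp; rfl
  have heq : (univ.filter fun p : Fin n × Fin n => b p.1 = b p.2).card = ∑ a, μ a * μ a := by
    rw [Finset.card_eq_sum_card_fiberwise (f := fun p : Fin n × Fin n => (⟨b p.1, compLabel_lt μ h p.1⟩ : Fin n)) (t := univ)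
      (fun _ _ => Finset.mem_coe.mpr (mem_univ _))]
    apply Finset.sum_congr rfl
    intro a _
    rw [Finset.filter_filter]
    conv_rhs => rw [← card_label μ h a, ← Finset.card_product]
    congr 1
    ext p
    simp only [mem_filter, mem_univ, true_and, mem_product, Fin.ext_iff]
    constructor
    · rintro ⟨h1, h2⟩
      exact ⟨h2, h1.symm.trans h2⟩
    · rintro ⟨h1, h2⟩
      exact ⟨h1.trans h2.symm, h1⟩
  have htot : (univ.filter fun p : Fin n × Fin n => b p.1 < b p.2).card + (univ.filter fun p : Fin n × Fin n => b p.2 < b p.1).card +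
      (univ.filter fun p : Fin n × Fin n => b p.1 = b p.2).card = n * n := by
    rw [← Finset.card_union_of_disjoint, ← Finset.card_union_of_disjoint]
    · have : ((univ.filter fun p : Fin n × Fin n => b p.1 < b p.2) ∪ (univ.filter fun p : Fin n × Fin n => b p.2 < b p.1)) ∪
        (univ.filter fun p : Fin n × Fin n => b p.1 = b p.2) = univ := by
        ext p
        simp only [mem_filter, mem_univ, true_and, mem_union, iff_true]
        omega
      rw [this, Finset.card_univ, Fintype.card_prod, Fintype.card_fin]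
    · rw [Finset.disjoint_left]
      intro p hp
      simp only [mem_filter, mem_univ, true_and, mem_union] at hp ⊢
      omega
    · rw [Finset.disjoint_left]
      intro p hp
      simp only [mem_filter, mem_univ, true_and] at hp ⊢
      omega
  have h3 : ∀ m : ℕ, 2 * (∑ k ∈ Finset.range m, k) + m = m * m := by
    intro m
    induction m with
    | zero => simp
    | succ m ih =>
      rw [Finset.sum_range_succ]
      nlinarith
  have h4 := h3 n
  have h5 : 2 * (∑ a, ∑ k ∈ Finset.range (μ a), k) + n = ∑ a, μ a * μ a := by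
    have e : ∑ a, μ a * μ a = ∑ a, (2 * (∑ k ∈ Finset.range (μ a), k) + μ a) :=
      Finset.sum_congr rfl fun a _ => (h3 _).symm
    rw [e, Finset.sum_add_distrib, h, Finset.mul_sum]
  rw [heq, ← hlt, ← h5] at htot
  omega

theorem card_parabolic {n : ℕ} (μ : Fin n → ℕ) (h : ∑ i, μ i = n) :
    Nat.card (parabolicGL n F μ) = Fintype.card F ^ (∑ k ∈ Finset.range n, k) * (Fintype.card F - 1) ^ n * ∏ a, qf (Fintype.card F) (μ a) := by
  have hq : 1 ≤ Fintype.card F := Fintype.card_pos
  rw [card_parabolic_aux μ h]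
  have h1 : ∀ a : Fin n, Nat.card {N : Matrix {i // compLabel μ i = a.val} {i // compLabel μ i = a.val} F // N.det ≠ 0} =
      Fintype.card F ^ (∑ k ∈ Finset.range (μ a), k) * (Fintype.card F - 1) ^ (μ a) * qf (Fintype.card F) (μ a) := by
    intro a
    rw [card_det, ← gl_card _ _ hq]
    have : Fintype.card {i // compLabel μ i = a.val} = μ a := by
      rw [Fintype.card_subtype, card_label μ h]
    rw [this]
  rw [Finset.prod_congr rfl (fun a _ => h1 a), Finset.prod_mul_distrib, Finset.prod_mul_distrib,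
    Finset.prod_pow_eq_pow_sum, Finset.prod_pow_eq_pow_sum, h, ← pair_count μ h, pow_add]
  ring

theorem index_parabolic {n : ℕ} (μ : Fin n → ℕ) (h : ∑ i, μ i = n) :
    Nat.card (GL (Fin n) F ⧸ parabolicGL n F μ) * ∏ a, qf (Fintype.card F) (μ a) = qf (Fintype.card F) n := by
  have hq : 1 < Fintype.card F := Fintype.one_lt_card
  have h1 : Nat.card (GL (Fin n) F) = Nat.card (GL (Fin n) F ⧸ parabolicGL n F μ) * Nat.card (parabolicGL n F μ) :=
    Subgroup.card_eq_card_quotient_mul_card_subgroup _
  rw [card_parabolic μ h, Matrix.card_GL_field, gl_card _ _ hq.le] at h1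
  have h2 : 0 < Fintype.card F ^ (∑ k ∈ Finset.range n, k) * (Fintype.card F - 1) ^ n := by
    apply Nat.mul_pos
    · exact Nat.pow_pos (by omega)
    · exact Nat.pow_pos (by omega)
  apply Nat.eq_of_mul_eq_mul_left h2
  rw [h1]
  ring

end

end CfsgLib.Unip
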