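import Mathlib
import Cfsg.Agent.LibUnipC

set_option autoImplicit false

open scoped Pointwise MatrixGroups
open Cfsg

namespace CfsgLib.SylL

section grp

variable {G : Type*} [Group G]

theorem mem_conj (g x : G) (P : Subgroup G) : x ∈ MulAut.conj g • P ↔ g⁻¹ * x * g ∈ P := by
  rw [Subgroup.mem_pointwise_smul_iff_inv_smul_mem, ← map_inv, MulAut.smul_def, MulAut.conj_apply, inv_inv]

theorem conj_self {g : G} {P : Subgroup G} (h : g ∈ P) : MulAut.conj g • P = P := by
  ext x
  rw [mem_conj]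
  constructor
  · intro hx
    have := P.mul_mem (P.mul_mem h hx) (P.inv_mem h)
    convert this using 1; group
  · intro hx
    exact P.mul_mem (P.mul_mem (P.inv_mem h) hx) h

theorem conj_mul (a b : G) (P : Subgroup G) : MulAut.conj (a * b) • P = MulAut.conj a • MulAut.conj b • P := by
  rw [map_mul, mul_smul]

/-- almost-index-two argument -/
theorem generic [Finite G] (N : Subgroup G) [hNn : N.Normal] (hidx : N.index = 2) (P : Subgroup G) (hPN : P ≤ N) (hP : IsPGroup 2 P)
    (hPi : ¬ 2 ∣ P.relIndex N) (hn : ∀ g ∈ N, MulAut.conj g • P = P → g ∈ P) (w : G) (hw : w ∈ N)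
    (htr : ∀ g ∈ N, P ⊓ MulAut.conj g • P = ⊥ → ∃ b ∈ P, MulAut.conj g • P = MulAut.conj (b * w) • P) (H : Sylow 2 G) (x : G) :
    (H : Subgroup G) ⊓ MulAut.conj x • (H : Subgroup G) ≠ ⊥ := by
  haveI : Fact (Nat.Prime 2) := ⟨Nat.prime_two⟩
  -- reduce to `P ≤ H`
  suffices key : ∀ (K : Sylow 2 G) (y : G), P ≤ K → (K : Subgroup G) ⊓ MulAut.conj y • (K : Subgroup G) ≠ ⊥ by
    obtain ⟨K, hK⟩ := hP.exists_le_sylow
    obtain ⟨z, hz⟩ := MulAction.exists_smul_eq G H K
    have hz' : (K : Subgroup G) = MulAut.conj z • (H : Subgroup G) := by rw [← hz]; rfl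
    intro h0
    apply key K (z * x * z⁻¹) hK
    rw [hz', conj_mul, conj_mul, ← conj_mul z⁻¹ z, inv_mul_cancel, map_one, one_smul, ← Subgroup.smul_inf, h0, Subgroup.smul_bot]
  clear H x
  intro H x hPH
  have hHN : (H : Subgroup G) ⊓ N = P := by
    apply le_antisymm _ (le_inf hPH hPN)
    have h1 : P.relIndex ((H : Subgroup G) ⊓ N) ∣ P.relIndex N := by
      have h2 := Subgroup.relIndex_mul_relIndex P ((H : Subgroup G) ⊓ N) N (le_inf hPH hPN) inf_le_right
      exact Dvd.intro _ h2
    have h2 : ∃ k, P.relIndex ((H : Subgroup G) ⊓ N) = 2 ^ k := by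
      have h3 : IsPGroup 2 ((H : Subgroup G) ⊓ N : Subgroup G) := H.isPGroup'.to_le inf_le_left
      obtain ⟨k, hk⟩ := h3.exists_card_eq
      have h4 : P.relIndex ((H : Subgroup G) ⊓ N) ∣ 2 ^ k := by
        rw [← hk]; exact Subgroup.index_dvd_card _
      obtain ⟨l, _, hl⟩ := (Nat.dvd_prime_pow Nat.prime_two).1 h4
      exact ⟨l, hl⟩
    obtain ⟨k, hk⟩ := h2
    have hk0 : k = 0 := by
      by_contra hk0
      apply hPi
      exact ((dvd_pow_self 2 hk0).trans (dvd_of_eq hk.symm)).trans h1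
    rw [hk0, pow_zero, Subgroup.relIndex_eq_one] at hk
    exact hk
  have hHi : ¬ 2 ∣ (H : Subgroup G).index := H.not_dvd_index
  obtain ⟨h, hhH, hhN⟩ : ∃ h ∈ (H : Subgroup G), h ∉ N := by
    by_contra hcon
    push Not at hcon
    apply hHi
    have h1 := Subgroup.index_dvd_of_le hcon
    rw [hidx] at h1
    exact h1
  have hmul : ∀ {a b : G}, a * b ∈ N ↔ (a ∈ N ↔ b ∈ N) := fun {a b} => Subgroup.mul_mem_iff_of_index_two hidx
  have hconjN : ∀ g a : G, g * a * g⁻¹ ∈ N ↔ a ∈ N := by
    intro g a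
    constructor
    · intro h1
      have := hNn.conj_mem _ h1 g⁻¹
      convert this using 1; group
    · intro h1; exact hNn.conj_mem _ h1 g
  have hconjH : ∀ g ∈ (H : Subgroup G), MulAut.conj g • P = P := by
    intro g hg
    rw [← hHN, Subgroup.smul_inf, conj_self hg]
    congr 1
    ext a
    rw [mem_conj]
    have := hconjN g⁻¹ a
    rw [inv_inv] at this
    exact this
  -- reduce to `x ∈ N`
  suffices key : ∀ y ∈ N, (H : Subgroup G) ⊓ MulAut.conj y • (H : Subgroup G) ≠ ⊥ by
    by_cases hx : x ∈ N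
    · exact key x hx
    · have h1 : x * h ∈ N := by rw [hmul]; exact ⟨fun h2 => absurd h2 hx, fun h2 => absurd h2 hhN⟩
      have h2 := key (x * h) h1
      rwa [conj_mul, conj_self hhH] at h2
  clear x
  intro n hnN hbot
  have hcap : P ⊓ MulAut.conj n • P = ⊥ := by
    rw [eq_bot_iff, ← hbot]
    apply inf_le_inf hPH
    intro a ha
    rw [mem_conj] at ha ⊢
    exact hPH ha
  obtain ⟨b, hb, hbn⟩ := htr n hnN hcap
  have hcapw : P ⊓ MulAut.conj w • P = ⊥ := by
    have h1 : MulAut.conj b⁻¹ • (P ⊓ MulAut.conj n • P) = ⊥ := by rw [hcap, Subgroup.smul_bot]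
    rw [Subgroup.smul_inf, conj_self (P.inv_mem hb), hbn, ← conj_mul, inv_mul_cancel_left] at h1
    exact h1
  have hgN : h * w * h⁻¹ ∈ N := (hconjN h w).2 hw
  have hgP : MulAut.conj (h * w * h⁻¹) • P = MulAut.conj h • MulAut.conj w • P := by
    rw [conj_mul, conj_mul, hconjH h⁻¹ (inv_mem hhH)]
  have hcapg : P ⊓ MulAut.conj (h * w * h⁻¹) • P = ⊥ := by
    have h1 : MulAut.conj h • (P ⊓ MulAut.conj w • P) = ⊥ := by rw [hcapw, Subgroup.smul_bot]
    rw [Subgroup.smul_inf, hconjH h hhH, ← hgP] at h1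
    exact h1
  obtain ⟨b2, hb2, hbg⟩ := htr _ hgN hcapg
  obtain ⟨h2, hh2⟩ : ∃ h2, h2 = b2⁻¹ * h := ⟨_, rfl⟩
  have hh2H : h2 ∈ (H : Subgroup G) := by rw [hh2]; exact mul_mem (inv_mem (hPH hb2)) hhH
  have hh2N : h2 ∉ N := by
    rw [hh2, hmul]
    intro h1
    exact hhN (h1.1 (N.inv_mem (hPN hb2)))
  have hh2w : MulAut.conj h2 • MulAut.conj w • P = MulAut.conj w • P := by
    rw [hh2, conj_mul, ← hgP, hbg, ← conj_mul, inv_mul_cancel_left]
  have hzP : MulAut.conj (w⁻¹ * h2 * w) • P = P := by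
    rw [conj_mul, conj_mul, hh2w, ← conj_mul, inv_mul_cancel, map_one, one_smul]
  have hzN : w⁻¹ * h2 * w ∉ N := by
    intro h1
    have h3 := (hconjN w⁻¹ h2).1 (by rwa [inv_inv])
    exact hh2N h3
  have hzH : w⁻¹ * h2 * w ∈ (H : Subgroup G) := by
    have h1 : (w⁻¹ * h2 * w) * h ∈ N := by rw [hmul]; exact ⟨fun h3 => absurd h3 hzN, fun h3 => absurd h3 hhN⟩
    have h3 : MulAut.conj ((w⁻¹ * h2 * w) * h) • P = P := by rw [conj_mul, hconjH h hhH, hzP]
    have h4 := hPH (hn _ h1 h3)
    have h5 := mul_mem h4 (inv_mem hhH)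
    rwa [mul_inv_cancel_right] at h5
  have hH' : MulAut.conj n • (H : Subgroup G) = MulAut.conj (b * w) • (H : Subgroup G) := by
    have h1 : (b * w)⁻¹ * n ∈ N := N.mul_mem (N.inv_mem (N.mul_mem (hPN hb) hw)) hnN
    have h3 : MulAut.conj ((b * w)⁻¹ * n) • P = P := by
      rw [conj_mul, hbn, ← conj_mul, inv_mul_cancel, map_one, one_smul]
    have h4 := hPH (hn _ h1 h3)
    have h5 := conj_self h4
    have h6 : n = (b * w) * ((b * w)⁻¹ * n) := by group
    rw [h6, conj_mul, h5]
  have h3 : b * h2 * b⁻¹ ∈ (H : Subgroup G) ⊓ MulAut.conj n • (H : Subgroup G) := by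
    refine ⟨(H : Subgroup G).mul_mem ((H : Subgroup G).mul_mem (hPH hb) hh2H) ((H : Subgroup G).inv_mem (hPH hb)), ?_⟩
    show b * h2 * b⁻¹ ∈ MulAut.conj n • (H : Subgroup G)
    rw [hH', mem_conj]
    convert hzH using 1
    group
  rw [hbot, Subgroup.mem_bot] at h3
  apply hh2N
  have h4 : h2 = 1 := by
    have : h2 = b⁻¹ * (b * h2 * b⁻¹) * b := by group
    rw [this, h3]; group
  rw [h4]; exact N.one_mem

end grp

section mat

open Matrix Finset CfsgLib.Unip

theorem compLabel_one {n : ℕ} (i : Fin n) : compLabel (fun _ : Fin n => 1) i = i.val := by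
  unfold compLabel
  have h1 : (Finset.univ.filter fun j : Fin n => (∑ k ∈ Finset.univ.filter (fun k : Fin n => k ≤ j), 1) ≤ i.val) = Finset.univ.filter (fun j : Fin n => j < i) := by
    apply Finset.filter_congr
    intro j _
    rw [Finset.sum_const, smul_eq_mul, mul_one]
    have h2 : (Finset.univ.filter (fun k : Fin n => k ≤ j)).card = j.val + 1 := by
      have : Finset.univ.filter (fun k : Fin n => k ≤ j) = Finset.Iic j := by ext; simp
      rw [this, Fin.card_Iic]
    rw [h2, Fin.lt_def]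
    omega
  rw [h1]
  have : Finset.univ.filter (fun k : Fin n => k < i) = Finset.Iio i := by ext; simp
  rw [this, Fin.card_Iio]

theorem par_one {F : Type*} [Field F] (n : ℕ) : parabolicGL n F (fun _ => 1) = upperTriangularGL n F := by
  ext g
  show (g : Matrix (Fin n) (Fin n) F).BlockTriangular (compLabel (fun _ : Fin n => 1)) ↔ (g : Matrix (Fin n) (Fin n) F).BlockTriangular id
  constructor
  · intro h i j hij
    exact h (by rw [compLabel_one, compLabel_one]; exact hij)
  · intro h i j hij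
    exact h (by rw [compLabel_one, compLabel_one] at hij; exact hij)

theorem card_up {F : Type*} [Field F] [Fintype F] (hF : Fintype.card F = 2) (n : ℕ) :
    Nat.card (upperTriangularGL n F) = 2 ^ (∑ k ∈ Finset.range n, k) := by
  rw [← par_one, card_parabolic _ (by simp), hF]
  simp [qf, qi]

theorem qf_odd (r : ℕ) : ¬ 2 ∣ qf 2 r := by
  unfold qf
  rw [Nat.prime_two.prime.dvd_finset_prod_iff]
  push Not
  intro j _
  unfold qi
  rw [Finset.sum_range_succ']
  have : 2 ∣ ∑ k ∈ Finset.range j, 2 ^ (k + 1) := Finset.dvd_sum (fun k _ => dvd_pow_self 2 (by omega))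
  omega

theorem index_up {F : Type*} [Field F] [Fintype F] (hF : Fintype.card F = 2) (n : ℕ) :
    ¬ 2 ∣ (upperTriangularGL n F).index := by
  classical
  have h1 := (upperTriangularGL n F).card_mul_index
  rw [card_up hF, Matrix.card_GL_field, hF, gl_card 2 n (by norm_num)] at h1
  simp only [one_pow, mul_one, Nat.add_one_sub_one] at h1
  have h2 : (upperTriangularGL n F).index = qf 2 n := by
    apply Nat.eq_of_mul_eq_mul_left (Nat.two_pow_pos (∑ k ∈ Finset.range n, k))
    rw [h1]
  rw [h2]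
  exact qf_odd n

theorem smono_id {n : ℕ} {f : Fin n → Fin n} (hf : StrictMono f) : f = id := by
  funext i
  apply le_antisymm
  · have hg : StrictMono (fun j => Fin.rev (f (Fin.rev j))) := by
      intro a b hab
      show Fin.rev (f (Fin.rev a)) < Fin.rev (f (Fin.rev b))
      rw [Fin.rev_lt_rev]
      exact hf (Fin.rev_lt_rev.2 hab)
    have h1 : Fin.rev i ≤ Fin.rev (f (Fin.rev (Fin.rev i))) := hg.le_apply
    rw [Fin.rev_rev, Fin.rev_le_rev] at h1
    exact h1
  · exact hf.le_apply

variable {n : ℕ} {F : Type*} [Field F]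

/-- elementary matrix -/
def El (i j : Fin n) (h : i ≠ j) : GL (Fin n) F :=
  Matrix.GeneralLinearGroup.mkOfDetNeZero (Matrix.transvection i j (1 : F)) (by rw [Matrix.det_transvection_of_ne i j h]; exact one_ne_zero)

theorem El_coe (i j : Fin n) (h : i ≠ j) : ((El i j h : GL (Fin n) F) : Matrix (Fin n) (Fin n) F) = Matrix.transvection i j (1 : F) := rfl

theorem El_mem {i j : Fin n} (h : i < j) : (El i j h.ne : GL (Fin n) F) ∈ upperTriangularGL n F := by
  show (Matrix.transvection i j (1 : F)).BlockTriangular id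
  intro a b hab
  have hab' : b < a := hab
  rw [Matrix.transvection, Matrix.add_apply, Matrix.one_apply_ne hab'.ne', zero_add, Matrix.single_apply_of_ne]
  rintro ⟨rfl, rfl⟩
  exact lt_asymm h hab'

theorem El_mem_iff {i j : Fin n} (h : i ≠ j) : (El i j h : GL (Fin n) F) ∈ upperTriangularGL n F ↔ i < j := by
  constructor
  · intro hm
    by_contra hcon
    have hji : j < i := lt_of_le_of_ne (not_lt.1 hcon) (Ne.symm h)
    have h1 : (Matrix.transvection i j (1 : F)) i j = 0 := hm hji
    rw [Matrix.transvection, Matrix.add_apply, Matrix.one_apply_ne h, zero_add, Matrix.single_apply_same] at h1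
    exact one_ne_zero h1
  · intro h1; exact El_mem h1

theorem El_ne_one {i j : Fin n} (h : i ≠ j) : (El i j h : GL (Fin n) F) ≠ 1 := by
  intro h1
  have h2 := congrFun (congrFun (congrArg (fun g : GL (Fin n) F => (g : Matrix (Fin n) (Fin n) F)) h1) i) j
  have h3 : (Matrix.transvection i j (1 : F)) i j = (1 : Matrix (Fin n) (Fin n) F) i j := h2
  rw [Matrix.transvection, Matrix.add_apply, Matrix.one_apply_ne h, zero_add, Matrix.single_apply_same] at h3
  exact one_ne_zero h3

theorem pm_El (σ : Equiv.Perm (Fin n)) {i j : Fin n} (h : i ≠ j) :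
    pm n F σ * El i j h * (pm n F σ)⁻¹ = El (σ i) (σ j) (fun h1 => h (σ.injective h1)) := by
  rw [mul_inv_eq_iff_eq_mul]
  apply Units.ext
  rw [Units.val_mul, Units.val_mul, El_coe, El_coe, Matrix.transvection, Matrix.transvection, mul_add, add_mul, mul_one, one_mul]
  congr 1
  ext a b
  rw [Matrix.mul_apply, Matrix.mul_apply, Finset.sum_eq_single i, Finset.sum_eq_single (σ j)]
  · rw [pm_apply, pm_apply]
    by_cases h1 : a = σ i
    · subst h1
      by_cases h2 : j = b
      · subst h2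
        simp
      · have h3 : σ j ≠ σ b := fun h4 => h2 (σ.injective h4)
        simp [h2, h3]
    · simp [h1, Ne.symm h1]
  · intro k _ hk
    rw [Matrix.single_apply_of_ne, zero_mul]
    rintro ⟨_, h1⟩
    exact hk h1.symm
  · intro h1; exact absurd (Finset.mem_univ _) h1
  · intro k _ hk
    rw [Matrix.single_apply_of_ne, mul_zero]
    rintro ⟨h1, _⟩
    exact hk h1.symm
  · intro h1; exact absurd (Finset.mem_univ _) h1

theorem up_norm {g : GL (Fin n) F} (hg : MulAut.conj g • upperTriangularGL n F = upperTriangularGL n F) : g ∈ upperTriangularGL n F := by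
  obtain ⟨b, hb, b', hb', σ, rfl⟩ := bruhat g
  have h1 : MulAut.conj (pm n F σ) • upperTriangularGL n F = upperTriangularGL n F := by
    rw [conj_mul, conj_mul, conj_self hb'] at hg
    have h2 : MulAut.conj b⁻¹ • MulAut.conj b • MulAut.conj (pm n F σ) • upperTriangularGL n F = MulAut.conj b⁻¹ • upperTriangularGL n F := by rw [hg]
    rw [conj_self (inv_mem hb), ← conj_mul, inv_mul_cancel, map_one, one_smul] at h2
    exact h2
  have h2 : StrictMono σ := by
    intro i j hij
    have h3 : pm n F σ * El i j hij.ne * (pm n F σ)⁻¹ ∈ upperTriangularGL n F := by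
      rw [← h1, mem_conj]
      convert El_mem hij using 1
      group
    rw [pm_El, El_mem_iff] at h3
    exact h3
  have h3 : σ = 1 := by
    ext i
    have h4 : (⇑σ) = id := smono_id h2
    rw [h4]; rfl
  rw [h3, map_one, mul_one]
  exact mul_mem hb hb'

theorem up_triv {g : GL (Fin n) F} (hg : upperTriangularGL n F ⊓ MulAut.conj g • upperTriangularGL n F = ⊥) :
    ∃ b ∈ upperTriangularGL n F, MulAut.conj g • upperTriangularGL n F = MulAut.conj (b * pm n F Fin.revPerm) • upperTriangularGL n F := by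
  obtain ⟨b, hb, b', hb', σ, rfl⟩ := bruhat g
  have h1 : upperTriangularGL n F ⊓ MulAut.conj (pm n F σ) • upperTriangularGL n F = ⊥ := by
    rw [conj_mul, conj_mul, conj_self hb'] at hg
    have h2 : MulAut.conj b⁻¹ • (upperTriangularGL n F ⊓ MulAut.conj b • MulAut.conj (pm n F σ) • upperTriangularGL n F) = ⊥ := by rw [hg, Subgroup.smul_bot]
    rw [Subgroup.smul_inf, conj_self (inv_mem hb), ← conj_mul, inv_mul_cancel, map_one, one_smul] at h2
    exact h2
  have h2 : StrictMono (fun i => Fin.rev (σ i)) := by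
    intro i j hij
    show Fin.rev (σ i) < Fin.rev (σ j)
    rw [Fin.rev_lt_rev]
    by_contra hcon
    have hne : σ i ≠ σ j := fun h => hij.ne (σ.injective h)
    have hlt : σ i < σ j := lt_of_le_of_ne (not_lt.1 hcon) hne
    have h3 : El (σ i) (σ j) hne ∈ upperTriangularGL n F ⊓ MulAut.conj (pm n F σ) • upperTriangularGL n F := by
      refine ⟨El_mem hlt, ?_⟩
      show El (σ i) (σ j) hne ∈ MulAut.conj (pm n F σ) • upperTriangularGL n F
      rw [← pm_El σ hij.ne, mem_conj]
      convert El_mem (F := F) hij using 1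
      group
    rw [h1, Subgroup.mem_bot] at h3
    exact El_ne_one hne h3
  have h3 : σ = Fin.revPerm := by
    have h4 : (fun i => Fin.rev (σ i)) = id := smono_id h2
    apply Equiv.ext
    intro i
    have h5 : Fin.rev (σ i) = i := congrFun h4 i
    rw [Fin.revPerm_apply, ← h5, Fin.rev_rev, h5]
  refine ⟨b, hb, ?_⟩
  rw [← h3, conj_mul, conj_self hb']

end mat

end CfsgLib.SylL
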