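import Mathlib
import Cfsg.Prelude
import Cfsg.Agent.LibSylLH13

set_option autoImplicit false

open Module Cfsg

namespace CfsgLib.OPl

section form

variable {F : Type*} [Field F] {m : ℕ}

/-- polar form -/
def Bf (F : Type*) [Field F] (m : ℕ) : LinearMap.BilinForm F (Fin m ⊕ Fin m → F) :=
  LinearMap.mk₂ F (fun x y => ∑ i : Fin m, (x (Sum.inl i) * y (Sum.inr i) + x (Sum.inr i) * y (Sum.inl i)))
    (by intro x x' y; rw [← Finset.sum_add_distrib]; exact Finset.sum_congr rfl fun i _ => by simp only [Pi.add_apply]; ring)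
    (by intro c x y; rw [smul_eq_mul, Finset.mul_sum]; exact Finset.sum_congr rfl fun i _ => by simp only [Pi.smul_apply, smul_eq_mul]; ring)
    (by intro x y y'; rw [← Finset.sum_add_distrib]; exact Finset.sum_congr rfl fun i _ => by simp only [Pi.add_apply]; ring)
    (by intro c x y; rw [smul_eq_mul, Finset.mul_sum]; exact Finset.sum_congr rfl fun i _ => by simp only [Pi.smul_apply, smul_eq_mul]; ring)

theorem Bf_apply (x y : Fin m ⊕ Fin m → F) : Bf F m x y = ∑ i : Fin m, (x (Sum.inl i) * y (Sum.inr i) + x (Sum.inr i) * y (Sum.inl i)) := rfl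

theorem Q_add (x y : Fin m ⊕ Fin m → F) : quadFormPlus m F (x + y) = quadFormPlus m F x + quadFormPlus m F y + Bf F m x y := by
  rw [Bf_apply]
  unfold quadFormPlus
  rw [← Finset.sum_add_distrib, ← Finset.sum_add_distrib]
  exact Finset.sum_congr rfl fun i _ => by simp only [Pi.add_apply]; ring

theorem Q_smul (c : F) (x : Fin m ⊕ Fin m → F) : quadFormPlus m F (c • x) = c ^ 2 * quadFormPlus m F x := by
  unfold quadFormPlus
  rw [Finset.mul_sum]
  exact Finset.sum_congr rfl fun i _ => by simp only [Pi.smul_apply, smul_eq_mul]; ring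

theorem Bf_symm (x y : Fin m ⊕ Fin m → F) : Bf F m x y = Bf F m y x := by
  rw [Bf_apply, Bf_apply]
  exact Finset.sum_congr rfl fun i _ => by ring

theorem Bf_self (h2 : (2 : F) = 0) (x : Fin m ⊕ Fin m → F) : Bf F m x x = 0 := by
  rw [Bf_apply]
  apply Finset.sum_eq_zero
  intro i _
  linear_combination (x (Sum.inl i) * x (Sum.inr i)) * h2

theorem Bf_left (x : Fin m ⊕ Fin m → F) (h : ∀ y, Bf F m x y = 0) : x = 0 := by
  funext j
  rcases j with j | j
  · have := h (Pi.single (Sum.inr j) 1)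
    rw [Bf_apply, Finset.sum_eq_single j] at this
    · simpa using this
    · intro i _ hi
      simp [hi]
    · simp
  · have := h (Pi.single (Sum.inl j) 1)
    rw [Bf_apply, Finset.sum_eq_single j] at this
    · simpa using this
    · intro i _ hi
      simp [hi]
    · simp

theorem Bf_nondeg : (Bf F m).Nondegenerate :=
  ⟨fun x h => Bf_left x h, fun x h => Bf_left x (fun y => by rw [Bf_symm]; exact h y)⟩

theorem Bf_refl : (Bf F m).IsRefl := fun x y h => by rw [Bf_symm]; exact h

theorem finrank_V : finrank F (Fin m ⊕ Fin m → F) = 2 * m := by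
  rw [Module.finrank_fintype_fun_eq_card, Fintype.card_sum, Fintype.card_fin]; ring

theorem finrank_orth (W : Submodule F (Fin m ⊕ Fin m → F)) : finrank F ((Bf F m).orthogonal W) = 2 * m - finrank F W := by
  rw [LinearMap.BilinForm.finrank_orthogonal Bf_nondeg, finrank_V]

/-- action -/
noncomputable def ac (g : isometryGroup F (quadFormPlus m F)) : (Fin m ⊕ Fin m → F) →ₗ[F] (Fin m ⊕ Fin m → F) := Matrix.toLin' (g.1 : Matrix _ _ F)

theorem ac_one (x : Fin m ⊕ Fin m → F) : ac (1 : isometryGroup F (quadFormPlus m F)) x = x := by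
  show Matrix.toLin' (1 : Matrix (Fin m ⊕ Fin m) (Fin m ⊕ Fin m) F) x = x
  rw [Matrix.toLin'_one]; rfl

theorem ac_mul (g h : isometryGroup F (quadFormPlus m F)) (x : Fin m ⊕ Fin m → F) : ac (g * h) x = ac g (ac h x) := by
  show Matrix.toLin' ((g.1 : Matrix (Fin m ⊕ Fin m) (Fin m ⊕ Fin m) F) * (h.1 : Matrix _ _ F)) x = _
  rw [Matrix.toLin'_mul]; rfl

theorem ac_inv (g : isometryGroup F (quadFormPlus m F)) (x : Fin m ⊕ Fin m → F) : ac g (ac g⁻¹ x) = x := by
  rw [← ac_mul, mul_inv_cancel, ac_one]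

theorem ac_inv' (g : isometryGroup F (quadFormPlus m F)) (x : Fin m ⊕ Fin m → F) : ac g⁻¹ (ac g x) = x := by
  rw [← ac_mul, inv_mul_cancel, ac_one]

theorem Q_ac (g : isometryGroup F (quadFormPlus m F)) (x : Fin m ⊕ Fin m → F) : quadFormPlus m F (ac g x) = quadFormPlus m F x := g.2 x x

theorem B_ac (g : isometryGroup F (quadFormPlus m F)) (x y : Fin m ⊕ Fin m → F) : Bf F m (ac g x) (ac g y) = Bf F m x y := by
  have h1 := Q_add (ac g x) (ac g y)
  rw [← map_add, Q_ac, Q_ac, Q_ac, Q_add] at h1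
  exact (add_left_cancel h1).symm

theorem ac_ext {g h : isometryGroup F (quadFormPlus m F)} (H : ∀ x, ac g x = ac h x) : g = h := by
  apply Subtype.ext
  apply Units.ext
  exact (Matrix.toLin' (R := F)).injective (LinearMap.ext H)

theorem mkG (T : (Fin m ⊕ Fin m → F) →ₗ[F] (Fin m ⊕ Fin m → F)) (hTT : ∀ x, T (T x) = x) (hQ : ∀ x, quadFormPlus m F (T x) = quadFormPlus m F x) :
    ∃ g : isometryGroup F (quadFormPlus m F), ∀ x, ac g x = T x := by
  have h1 : LinearMap.toMatrix' T * LinearMap.toMatrix' T = 1 := by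
    rw [← LinearMap.toMatrix'_comp, ← LinearMap.toMatrix'_id]
    congr 1
    exact LinearMap.ext hTT
  refine ⟨⟨⟨LinearMap.toMatrix' T, LinearMap.toMatrix' T, h1, h1⟩, ?_⟩, ?_⟩
  · intro u _
    show quadFormPlus m F ((LinearMap.toMatrix' T).mulVec u) = quadFormPlus m F u
    rw [← Matrix.toLin'_apply, Matrix.toLin'_toMatrix', hQ]
  · intro x
    show Matrix.toLin' (LinearMap.toMatrix' T) x = T x
    rw [Matrix.toLin'_toMatrix']

end form

end CfsgLib.OPl
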