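import Mathlib
import Cfsg.Agent.LibOPlH13

set_option autoImplicit false

open Module Cfsg

namespace CfsgLib.OPl

section step

variable {F : Type*} [Field F] [Fintype F] {m : ℕ}

/-- zeros of the form on a subspace of dimension at least 3 -/
theorem even_zeros (hF : Fintype.card F = 2) (C : Submodule F (Fin m ⊕ Fin m → F)) (hd : 3 ≤ finrank F C) :
    2 ∣ Nat.card {c : C // quadFormPlus m F (c : Fin m ⊕ Fin m → F) = 0} := by
  classical
  haveI : Fact (Nat.Prime 2) := ⟨Nat.prime_two⟩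
  haveI : CharP F 2 := charP_of_card_eq_prime hF
  obtain ⟨d, hdd⟩ : ∃ d, d = finrank F C := ⟨_, rfl⟩
  let b : Basis (Fin d) F C := Module.finBasisOfFinrankEq F C hdd.symm
  let p : MvPolynomial (Fin d) F := ∑ l : Fin m, (∑ i, MvPolynomial.C ((b i : Fin m ⊕ Fin m → F) (Sum.inl l)) * MvPolynomial.X i) *
    (∑ i, MvPolynomial.C ((b i : Fin m ⊕ Fin m → F) (Sum.inr l)) * MvPolynomial.X i)
  have hlin : ∀ f : Fin d → F, (∑ i, MvPolynomial.C (f i) * MvPolynomial.X i : MvPolynomial (Fin d) F).totalDegree ≤ 1 := by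
    intro f
    apply MvPolynomial.totalDegree_finsetSum_le
    intro i _
    refine (MvPolynomial.totalDegree_mul _ _).trans ?_
    rw [MvPolynomial.totalDegree_C, zero_add]
    exact (MvPolynomial.totalDegree_X (R := F) i).le
  have hdeg : p.totalDegree < Fintype.card (Fin d) := by
    rw [Fintype.card_fin]
    refine lt_of_le_of_lt ?_ (show 2 < d by omega)
    apply MvPolynomial.totalDegree_finsetSum_le
    intro l _
    exact (MvPolynomial.totalDegree_mul _ _).trans (add_le_add (hlin _) (hlin _))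
  have h1 := char_dvd_card_solutions 2 hdeg
  have heval : ∀ x : Fin d → F, MvPolynomial.eval x p = quadFormPlus m F ((b.equivFun.symm x : C) : Fin m ⊕ Fin m → F) := by
    intro x
    have h2 : ((b.equivFun.symm x : C) : Fin m ⊕ Fin m → F) = ∑ i, x i • (b i : Fin m ⊕ Fin m → F) := by
      rw [Basis.equivFun_symm_apply]
      push_cast
      rfl
    rw [h2, map_sum]
    unfold quadFormPlus
    apply Finset.sum_congr rfl
    intro l _
    rw [map_mul, map_sum, map_sum]
    congr 1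
    · rw [Finset.sum_apply]
      exact Finset.sum_congr rfl fun i _ => by simp [mul_comm]
    · rw [Finset.sum_apply]
      exact Finset.sum_congr rfl fun i _ => by simp [mul_comm]
  have e : {x : Fin d → F // MvPolynomial.eval x p = 0} ≃ {c : C // quadFormPlus m F (c : Fin m ⊕ Fin m → F) = 0} :=
    b.equivFun.symm.toEquiv.subtypeEquiv (fun x => by rw [heval]; rfl)
  rw [← Nat.card_congr e, Nat.card_eq_fintype_card]
  exact h1

theorem step (hF : Fintype.card F = 2) (H : Subgroup (isometryGroup F (quadFormPlus m F))) (hH : IsPGroup 2 H)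
    (W : Submodule F (Fin m ⊕ Fin m → F)) (hWs : ∀ x ∈ W, quadFormPlus m F x = 0) (hWH : ∀ h ∈ H, ∀ x ∈ W, ac h x ∈ W) {k : ℕ}
    (hk : finrank F W = k) (hkm : k + 2 ≤ m) :
    ∃ W' : Submodule F (Fin m ⊕ Fin m → F), finrank F W' = k + 1 ∧ (∀ x ∈ W', quadFormPlus m F x = 0) ∧ (∀ h ∈ H, ∀ x ∈ W', ac h x ∈ W') := by
  classical
  haveI : Fact (Nat.Prime 2) := ⟨Nat.prime_two⟩
  obtain ⟨U, hU⟩ : ∃ U, U = (Bf F m).orthogonal W := ⟨_, rfl⟩
  have hmU : ∀ u, u ∈ U ↔ ∀ x ∈ W, Bf F m x u = 0 := by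
    intro u; rw [hU, LinearMap.BilinForm.mem_orthogonal_iff]
  have hWU : W ≤ U := by
    intro y hy
    rw [hmU]
    intro x hx
    have h1 := Q_add x y
    rw [hWs _ (W.add_mem hx hy), hWs _ hx, hWs _ hy, add_zero, zero_add] at h1
    exact h1.symm
  have hUr : finrank F U = 2 * m - k := by rw [hU, finrank_orth, hk]
  have hUH : ∀ h ∈ H, ∀ x ∈ U, ac h x ∈ U := by
    intro h hh u hu
    rw [hmU] at hu ⊢
    intro x hx
    have h1 := B_ac h (ac h⁻¹ x) u
    rw [ac_inv] at h1
    rw [h1]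
    exact hu _ (hWH _ (H.inv_mem hh) x hx)
  obtain ⟨C1, hC1⟩ := (W.submoduleOf U).exists_isCompl
  have hWr : finrank F (W.submoduleOf U) = k := by
    rw [← hk]; exact LinearEquiv.finrank_eq (Submodule.submoduleOfEquivOfLe hWU)
  obtain ⟨C, hC⟩ : ∃ C, C = C1.map U.subtype := ⟨_, rfl⟩
  have hCU : C ≤ U := by rw [hC]; exact Submodule.map_subtype_le U C1
  have hCr : finrank F C = 2 * m - 2 * k := by
    have h1 := Submodule.finrank_add_eq_of_isCompl hC1
    rw [hWr, hUr] at h1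
    rw [hC, Submodule.finrank_map_subtype_eq]
    omega
  have hCW : ∀ x ∈ C, x ∈ W → x = 0 := by
    intro x hx hxW
    rw [hC] at hx
    obtain ⟨y, hy, rfl⟩ := hx
    have h1 : y ∈ (W.submoduleOf U) ⊓ C1 := ⟨hxW, hy⟩
    rw [hC1.inf_eq_bot, Submodule.mem_bot] at h1
    rw [h1]; rfl
  have hCs : ∀ u ∈ U, ∃ c ∈ C, ∃ w ∈ W, u = c + w := by
    intro u hu
    have h1 : (⟨u, hu⟩ : U) ∈ (W.submoduleOf U) ⊔ C1 := by rw [hC1.sup_eq_top]; trivial
    obtain ⟨w, hw, c, hc, hwc⟩ := Submodule.mem_sup.1 h1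
    refine ⟨c, by rw [hC]; exact ⟨c, hc, rfl⟩, w, hw, ?_⟩
    have := congrArg Subtype.val hwc
    rw [add_comm]
    exact this.symm
  have heven := even_zeros hF C (by omega)
  let β := {z : (Fin m ⊕ Fin m → F) ⧸ W // z ≠ 0 ∧ ∃ u ∈ U, quadFormPlus m F u = 0 ∧ W.mkQ u = z}
  have hcard : ¬ 2 ∣ Nat.card β := by
    let S : Set C := {c | quadFormPlus m F (c : Fin m ⊕ Fin m → F) = 0}
    have hS0 : (0 : C) ∈ S := by
      show quadFormPlus m F (0 : Fin m ⊕ Fin m → F) = 0
      exact hWs 0 W.zero_mem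
    have h1 : Nat.card (S \ {0} : Set C) = Nat.card S - 1 := Set.ncard_diff_singleton_of_mem hS0
    have h2 : 0 < Nat.card S := Nat.card_pos_iff.2 ⟨⟨⟨0, hS0⟩⟩, inferInstance⟩
    have h3 : 2 ∣ Nat.card S := heven
    have e : (S \ {0} : Set C) ≃ β := Equiv.ofBijective (fun c => (⟨W.mkQ (c.1 : Fin m ⊕ Fin m → F), by
        refine ⟨?_, c.1, hCU c.1.2, c.2.1, rfl⟩
        intro h0
        rw [← LinearMap.mem_ker, Submodule.ker_mkQ] at h0
        exact c.2.2 (Subtype.ext (hCW _ c.1.2 h0))⟩ : β)) (by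
      constructor
      · intro a b hab
        have h4 : W.mkQ (a.1 : Fin m ⊕ Fin m → F) = W.mkQ (b.1 : Fin m ⊕ Fin m → F) := congrArg Subtype.val hab
        rw [← sub_eq_zero, ← map_sub, ← LinearMap.mem_ker, Submodule.ker_mkQ] at h4
        have h5 := hCW _ (C.sub_mem a.1.2 b.1.2) h4
        exact Subtype.ext (Subtype.ext (sub_eq_zero.1 h5))
      · rintro ⟨z, hz, u, hu, hQu, rfl⟩
        obtain ⟨c, hc, w, hw, rfl⟩ := hCs u hu
        have h4 : W.mkQ w = 0 := by rw [← LinearMap.mem_ker, Submodule.ker_mkQ]; exact hw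
        have h5 : quadFormPlus m F c = 0 := by
          rw [Q_add, hWs w hw, add_zero, Bf_symm, (hmU c).1 (hCU hc) w hw, add_zero] at hQu
          exact hQu
        refine ⟨⟨⟨c, hc⟩, h5, ?_⟩, ?_⟩
        · intro h6
          have h7 : c = 0 := congrArg Subtype.val h6
          apply hz
          rw [map_add, h4, h7, map_zero, add_zero]
        · apply Subtype.ext
          show W.mkQ c = W.mkQ (c + w)
          rw [map_add, h4, add_zero])
    rw [← Nat.card_congr e, h1]
    omega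
  have hle : ∀ h : H, W ≤ W.comap (ac h.1) := fun h x hx => hWH h.1 h.2 x hx
  letI : MulAction H β :=
    { smul := fun h z => ⟨W.mapQ W (ac h.1) (hle h) z.1, by
        obtain ⟨z, hz, u, hu, hQu, hzu⟩ := z
        subst hzu
        refine ⟨?_, ac h.1 u, hUH h.1 h.2 u hu, by rw [Q_ac, hQu], rfl⟩
        intro h0
        apply hz
        have h1 : W.mkQ (ac h.1 u) = 0 := h0
        rw [← LinearMap.mem_ker, Submodule.ker_mkQ] at h1 ⊢
        have h2 := hWH _ (H.inv_mem h.2) _ h1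
        rwa [ac_inv'] at h2⟩
      one_smul := by
        rintro ⟨z, hz, u, hu, hQu, rfl⟩
        apply Subtype.ext
        show W.mkQ (ac (1 : isometryGroup F (quadFormPlus m F)) u) = W.mkQ u
        rw [ac_one]
      mul_smul := by
        rintro g h ⟨z, hz, u, hu, hQu, rfl⟩
        apply Subtype.ext
        show W.mkQ (ac (g.1 * h.1) u) = W.mkQ (ac g.1 (ac h.1 u))
        rw [ac_mul] }
  obtain ⟨⟨z, hz, u, hu, hQu, hzu⟩, hfix⟩ := hH.nonempty_fixed_point_of_prime_not_dvd_card β hcard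
  subst hzu
  have hfix' : ∀ h ∈ H, ac h u - u ∈ W := by
    intro h hh
    have h1 := congrArg Subtype.val (hfix ⟨h, hh⟩)
    have h2 : W.mkQ (ac h u) = W.mkQ u := h1
    rwa [← sub_eq_zero, ← map_sub, ← LinearMap.mem_ker, Submodule.ker_mkQ] at h2
  have huW : u ∉ W := by
    intro h
    apply hz
    rw [← LinearMap.mem_ker, Submodule.ker_mkQ]; exact h
  refine ⟨W ⊔ Submodule.span F {u}, ?_, ?_, ?_⟩
  · have hu0 : u ≠ 0 := by rintro rfl; exact huW W.zero_mem
    have h1 := Submodule.finrank_sup_add_finrank_inf_eq W (Submodule.span F {u})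
    have h2 : W ⊓ Submodule.span F {u} = ⊥ := by
      rw [eq_bot_iff]
      rintro x ⟨hx1, hx2⟩
      obtain ⟨c, rfl⟩ := Submodule.mem_span_singleton.1 hx2
      by_cases hc : c = 0
      · rw [hc, zero_smul]; exact Submodule.zero_mem _
      · exfalso
        apply huW
        have := W.smul_mem c⁻¹ hx1
        rwa [smul_smul, inv_mul_cancel₀ hc, one_smul] at this
    rw [h2, finrank_bot, add_zero, hk, finrank_span_singleton hu0] at h1
    exact h1
  · intro x hx
    obtain ⟨w, hw, y, hy, rfl⟩ := Submodule.mem_sup.1 hx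
    obtain ⟨c, rfl⟩ := Submodule.mem_span_singleton.1 hy
    rw [Q_add, hWs w hw, Q_smul, hQu, map_smul, smul_eq_mul, (hmU u).1 hu w hw]
    ring
  · intro h hh x hx
    obtain ⟨w, hw, y, hy, rfl⟩ := Submodule.mem_sup.1 hx
    obtain ⟨c, rfl⟩ := Submodule.mem_span_singleton.1 hy
    rw [map_add, map_smul]
    have h1 : ac h w + c • ac h u = (ac h w + c • (ac h u - u)) + c • u := by
      rw [smul_sub]; abel
    rw [h1]
    exact Submodule.add_mem_sup (W.add_mem (hWH h hh w hw) (W.smul_mem c (hfix' h hh))) (Submodule.mem_span_singleton.2 ⟨c, rfl⟩)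

/-- an invariant totally singular subspace of dimension `m - 1` -/
theorem exists_sing (hF : Fintype.card F = 2) (H : Subgroup (isometryGroup F (quadFormPlus m F))) (hH : IsPGroup 2 H) (k : ℕ) (hk : k + 1 ≤ m) :
    ∃ W : Submodule F (Fin m ⊕ Fin m → F), finrank F W = k ∧ (∀ x ∈ W, quadFormPlus m F x = 0) ∧ (∀ h ∈ H, ∀ x ∈ W, ac h x ∈ W) := by
  induction k with
  | zero =>
    refine ⟨⊥, finrank_bot _ _, ?_, ?_⟩
    · intro x hx
      rw [Submodule.mem_bot] at hx
      rw [hx]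
      simp [quadFormPlus]
    · intro h _ x hx
      rw [Submodule.mem_bot] at hx ⊢
      rw [hx, map_zero]
  | succ k ih =>
    obtain ⟨W, h1, h2, h3⟩ := ih (by omega)
    exact step hF H hH W h2 h3 h1 (by omega)

end step

end CfsgLib.OPl
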