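import Mathlib
import Cfsg.Agent.LibOPl2H13

set_option autoImplicit false

open Module Cfsg

namespace CfsgLib.OPl

section ptw

variable {F : Type*} [Field F] [Fintype F] {m : ℕ}

theorem two_zero (hF : Fintype.card F = 2) : (2 : F) = 0 := by
  haveI : Fact (Nat.Prime 2) := ⟨Nat.prime_two⟩
  haveI : CharP F 2 := charP_of_card_eq_prime hF
  have := CharP.cast_eq_zero F 2
  exact_mod_cast this

theorem zero_or_one (hF : Fintype.card F = 2) (a : F) : a = 0 ∨ a = 1 := by
  classical
  by_contra hcon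
  push Not at hcon
  have h1 : ({0, 1, a} : Finset F).card ≤ Fintype.card F := Finset.card_le_univ _
  rw [Finset.card_insert_of_notMem (by simp [hcon.1.symm]), Finset.card_insert_of_notMem (by simp [hcon.2.symm]), Finset.card_singleton, hF] at h1
  omega

theorem neg_self' (h2 : (2 : F) = 0) (x : Fin m ⊕ Fin m → F) : x + x = 0 := by
  rw [← two_smul F x, h2, zero_smul]

theorem exists_e (W : Submodule F (Fin m ⊕ Fin m → F)) (hk : finrank F W + 1 = m) :
    ∃ e ∈ (Bf F m).orthogonal W, quadFormPlus m F e = 0 ∧ e ∉ W := by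
  classical
  by_contra hcon
  push Not at hcon
  let E : Submodule F (Fin m ⊕ Fin m → F) := LinearMap.ker (LinearMap.funLeft F F (Sum.inr : Fin m → Fin m ⊕ Fin m))
  have hE : ∀ x, x ∈ E ↔ ∀ i, x (Sum.inr i) = 0 := by
    intro x
    rw [LinearMap.mem_ker]
    constructor
    · intro h i; exact congrFun h i
    · intro h; funext i; exact h i
  have hEr : finrank F E = m := by
    have h1 := LinearMap.finrank_range_add_finrank_ker (LinearMap.funLeft F F (Sum.inr : Fin m → Fin m ⊕ Fin m))
    rw [LinearMap.range_eq_top.2 (LinearMap.funLeft_surjective_of_injective F F _ Sum.inr_injective), finrank_top, finrank_V, Module.finrank_fin_fun] at h1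
    have h2 : finrank F E = finrank F (LinearMap.ker (LinearMap.funLeft F F (Sum.inr : Fin m → Fin m ⊕ Fin m))) := rfl
    omega
  have h1 : (Bf F m).orthogonal W ⊓ E ≤ W ⊓ E := by
    rintro x ⟨hx1, hx2⟩
    refine ⟨hcon x hx1 ?_, hx2⟩
    unfold quadFormPlus
    apply Finset.sum_eq_zero
    intro i _
    rw [(hE x).1 hx2 i, mul_zero]
  have h2 : (Bf F m).orthogonal (W ⊔ E) ≤ (Bf F m).orthogonal W ⊓ E := by
    intro z hz
    rw [LinearMap.BilinForm.mem_orthogonal_iff] at hz
    refine ⟨?_, ?_⟩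
    · show z ∈ (Bf F m).orthogonal W
      rw [LinearMap.BilinForm.mem_orthogonal_iff]
      intro x hx
      exact hz x (Submodule.mem_sup_left hx)
    · show z ∈ E
      rw [hE]
      intro i
      have h3 := hz (Pi.single (Sum.inl i) 1) (Submodule.mem_sup_right ((hE _).2 (fun j => by simp)))
      rw [Bf_apply, Finset.sum_eq_single i] at h3
      · simpa using h3
      · intro j _ hj
        simp [hj]
      · simp
  have h3 := Submodule.finrank_mono (h2.trans h1)
  rw [finrank_orth] at h3
  have h4 := Submodule.finrank_sup_add_finrank_inf_eq W E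
  have h5 : finrank F ↥(W ⊔ E) ≤ 2 * m := by
    have := Submodule.finrank_le (W ⊔ E)
    rwa [finrank_V] at this
  rw [hEr] at h4
  omega

theorem ptwise (hF : Fintype.card F = 2) (W : Submodule F (Fin m ⊕ Fin m → F)) (hWs : ∀ x ∈ W, quadFormPlus m F x = 0) (hk : finrank F W + 1 = m)
    (s : isometryGroup F (quadFormPlus m F)) (hs : ∀ x ∈ W, ac s x = x) : s ^ 8 = 1 := by
  classical
  have h2 := two_zero hF
  obtain ⟨e, heU, hQe, heW⟩ := exists_e W hk
  obtain ⟨U, hU⟩ : ∃ U, U = (Bf F m).orthogonal W := ⟨_, rfl⟩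
  rw [← hU] at heU
  have hmU : ∀ u, u ∈ U ↔ ∀ x ∈ W, Bf F m x u = 0 := by
    intro u; rw [hU, LinearMap.BilinForm.mem_orthogonal_iff]
  have hWU : W ≤ U := by
    intro y hy
    rw [hmU]
    intro x hx
    have h1 := Q_add x y
    rw [hWs _ (W.add_mem hx hy), hWs _ hx, hWs _ hy, add_zero, zero_add] at h1
    exact h1.symm
  have hUr : finrank F U = m + 1 := by
    rw [hU, finrank_orth]; omega
  have hUU : ∀ x, (∀ u ∈ U, Bf F m u x = 0) → x ∈ W := by
    intro x hx
    have h1 : (Bf F m).orthogonal ((Bf F m).orthogonal W) = W := LinearMap.BilinForm.orthogonal_orthogonal Bf_nondeg Bf_refl W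
    rw [← h1, ← hU, LinearMap.BilinForm.mem_orthogonal_iff]
    exact hx
  obtain ⟨f, hfU, hQf, hef⟩ : ∃ f ∈ U, quadFormPlus m F f = 0 ∧ Bf F m e f = 1 := by
    obtain ⟨f0, hf0, hf0e⟩ : ∃ f0 ∈ U, Bf F m f0 e ≠ 0 := by
      by_contra hcon
      push Not at hcon
      exact heW (hUU e hcon)
    have h1 : Bf F m e f0 = 1 := by
      rw [Bf_symm]
      exact (zero_or_one hF _).resolve_left hf0e
    refine ⟨f0 + quadFormPlus m F f0 • e, U.add_mem hf0 (U.smul_mem _ heU), ?_, ?_⟩
    · rw [Q_add, Q_smul, hQe, map_smul, smul_eq_mul, Bf_symm f0 e, h1]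
      linear_combination (quadFormPlus m F f0) * h2
    · rw [map_add, map_smul, smul_eq_mul, Bf_self h2, h1]; ring
  have hee := Bf_self h2 e
  have hff := Bf_self h2 f
  have hfe : Bf F m f e = 1 := by rw [Bf_symm, hef]
  -- `U = W + ⟨e, f⟩`
  have hV2 : W ⊔ Submodule.span F {e} ⊔ Submodule.span F {f} = U := by
    have h1 : W < W ⊔ Submodule.span F {e} := by
      refine lt_of_le_of_ne le_sup_left ?_
      intro h
      apply heW
      rw [h]
      exact Submodule.mem_sup_right (Submodule.mem_span_singleton_self e)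
    have h3 : W ⊔ Submodule.span F {e} < W ⊔ Submodule.span F {e} ⊔ Submodule.span F {f} := by
      refine lt_of_le_of_ne le_sup_left ?_
      intro h
      have h4 : f ∈ W ⊔ Submodule.span F {e} := by
        rw [h]
        exact Submodule.mem_sup_right (Submodule.mem_span_singleton_self f)
      obtain ⟨w, hw, y, hy, hwy⟩ := Submodule.mem_sup.1 h4
      obtain ⟨c, rfl⟩ := Submodule.mem_span_singleton.1 hy
      have h5 : Bf F m e f = 0 := by
        rw [← hwy, map_add, map_smul, hee, Bf_symm e w, (hmU e).1 heU w hw]; simp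
      rw [hef] at h5
      exact one_ne_zero h5
    have h4 := Submodule.finrank_lt_finrank_of_lt h1
    have h5 := Submodule.finrank_lt_finrank_of_lt h3
    apply Submodule.eq_of_le_of_finrank_le
    · refine sup_le (sup_le hWU ?_) ?_
      · rw [Submodule.span_singleton_le_iff_mem]; exact heU
      · rw [Submodule.span_singleton_le_iff_mem]; exact hfU
    · omega
  have hdec : ∀ u ∈ U, u - Bf F m u f • e - Bf F m u e • f ∈ W := by
    intro u hu
    apply hUU
    intro v hv
    obtain ⟨w, hw, huw⟩ : ∃ w ∈ W, ∃ α β : F, v = w + α • e + β • f := by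
      rw [← hV2] at hv
      obtain ⟨y, hy, z, hz, rfl⟩ := Submodule.mem_sup.1 hv
      obtain ⟨w, hw, y', hy', rfl⟩ := Submodule.mem_sup.1 hy
      obtain ⟨α, rfl⟩ := Submodule.mem_span_singleton.1 hy'
      obtain ⟨β, rfl⟩ := Submodule.mem_span_singleton.1 hz
      exact ⟨w, hw, α, β, rfl⟩
    obtain ⟨α, β, rfl⟩ := huw
    have e1 := (hmU u).1 hu w hw
    have e2 := (hmU e).1 heU w hw
    have e3 := (hmU f).1 hfU w hw
    simp only [map_add, map_sub, map_smul, LinearMap.add_apply, LinearMap.smul_apply, smul_eq_mul, e1, e2, e3, hee, hff, hef, hfe, Bf_symm e u, Bf_symm f u]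
    ring
  have hsU : ∀ x ∈ U, ac s x ∈ U := by
    intro u hu
    rw [hmU] at hu ⊢
    intro x hx
    rw [← hs x hx, B_ac]
    exact hu x hx
  -- the action of `s²` on `U / W`
  have hQdec : ∀ w ∈ W, ∀ α β : F, quadFormPlus m F (w + α • e + β • f) = α * β := by
    intro w hw α β
    rw [Q_add, Q_add, hWs w hw, Q_smul, Q_smul, hQe, hQf]
    simp only [map_add, map_smul, LinearMap.add_apply, LinearMap.smul_apply, smul_eq_mul, (hmU e).1 heU w hw, (hmU f).1 hfU w hw, hef]
    ring
  have hform : ∀ u ∈ U, ∃ w ∈ W, u = w + Bf F m u f • e + Bf F m u e • f := by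
    intro u hu
    exact ⟨_, hdec u hu, by abel⟩
  obtain ⟨w1, hw1, h1⟩ := hform _ (hsU e heU)
  obtain ⟨w2, hw2, h3⟩ := hform _ (hsU f hfU)
  obtain ⟨α, hα⟩ : ∃ α, α = Bf F m (ac s e) f := ⟨_, rfl⟩
  obtain ⟨β, hβ⟩ : ∃ β, β = Bf F m (ac s e) e := ⟨_, rfl⟩
  obtain ⟨γ, hγ⟩ : ∃ γ, γ = Bf F m (ac s f) f := ⟨_, rfl⟩
  obtain ⟨δ, hδ⟩ : ∃ δ, δ = Bf F m (ac s f) e := ⟨_, rfl⟩
  rw [← hα, ← hβ] at h1
  rw [← hγ, ← hδ] at h3
  have hαβ : α * β = 0 := by rw [← hQdec w1 hw1, ← h1, Q_ac, hQe]
  have hγδ : γ * δ = 0 := by rw [← hQdec w2 hw2, ← h3, Q_ac, hQf]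
  have hww : Bf F m w1 w2 = 0 := (hmU w2).1 (hWU hw2) w1 hw1
  have hrel : α * δ + β * γ = 1 := by
    have h4 := B_ac s e f
    rw [h1, h3, hef] at h4
    have e1 := (hmU e).1 heU w1 hw1
    have e2 := (hmU f).1 hfU w1 hw1
    have e3 := (hmU e).1 heU w2 hw2
    have e4 := (hmU f).1 hfU w2 hw2
    simp only [map_add, map_smul, LinearMap.add_apply, LinearMap.smul_apply, smul_eq_mul, e1, e2, hww, hee, hff, hef, hfe, Bf_symm e w2, Bf_symm f w2, e3, e4] at h4
    linear_combination h4
  have key : ac s (ac s e) - e ∈ W ∧ ac s (ac s f) - f ∈ W := by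
    rcases zero_or_one hF α with ha | ha
    · -- swap
      rw [ha, zero_mul, zero_add] at hrel
      have hb : β = 1 := (zero_or_one hF β).resolve_left (left_ne_zero_of_mul_eq_one hrel)
      have hg : γ = 1 := by rw [hb, one_mul] at hrel; exact hrel
      have hd : δ = 0 := by rw [hg, one_mul] at hγδ; exact hγδ
      rw [ha, hb, zero_smul, one_smul, add_zero] at h1
      rw [hg, hd, zero_smul, one_smul, add_zero] at h3
      constructor
      · rw [h1, map_add, hs w1 hw1, h3]
        have : w1 + (w2 + e) - e = w1 + w2 := by abel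
        rw [this]; exact W.add_mem hw1 hw2
      · rw [h3, map_add, hs w2 hw2, h1]
        have : w2 + (w1 + f) - f = w2 + w1 := by abel
        rw [this]; exact W.add_mem hw2 hw1
    · rw [ha, one_mul] at hαβ
      rw [ha, hαβ, one_mul, zero_mul, add_zero] at hrel
      have hg : γ = 0 := by rw [hrel, mul_one] at hγδ; exact hγδ
      rw [ha, hαβ, zero_smul, one_smul, add_zero] at h1
      rw [hg, hrel, zero_smul, one_smul, add_zero] at h3
      constructor
      · rw [h1, map_add, hs w1 hw1, h1]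
        have : w1 + (w1 + e) - e = w1 + w1 := by abel
        rw [this]; exact W.add_mem hw1 hw1
      · rw [h3, map_add, hs w2 hw2, h3]
        have : w2 + (w2 + f) - f = w2 + w2 := by abel
        rw [this]; exact W.add_mem hw2 hw2
  obtain ⟨t, ht⟩ : ∃ t, t = s * s := ⟨_, rfl⟩
  have htW : ∀ x ∈ W, ac t x = x := by
    intro x hx; rw [ht, ac_mul, hs x hx, hs x hx]
  have htU : ∀ u ∈ U, ac t u - u ∈ W := by
    intro u hu
    obtain ⟨w, hw, a, b, rfl⟩ : ∃ w ∈ W, ∃ a b : F, u = w + a • e + b • f := by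
      obtain ⟨w, hw, huw⟩ := hform u hu
      exact ⟨w, hw, _, _, huw⟩
    rw [map_add, map_add, map_smul, map_smul, htW w hw]
    have h4 : ac t e - e ∈ W := by rw [ht, ac_mul]; exact key.1
    have h5 : ac t f - f ∈ W := by rw [ht, ac_mul]; exact key.2
    have h6 : w + a • ac t e + b • ac t f - (w + a • e + b • f) = a • (ac t e - e) + b • (ac t f - f) := by
      rw [smul_sub, smul_sub]; abel
    rw [h6]
    exact W.add_mem (W.smul_mem _ h4) (W.smul_mem _ h5)
  have htV : ∀ x, ac t x - x ∈ U := by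
    intro x
    rw [hmU]
    intro w hw
    have h4 := B_ac t w x
    rw [htW w hw] at h4
    rw [map_sub, h4, sub_self]
  have htt : ∀ x, ∃ w ∈ W, ac t (ac t x) = x + w := by
    intro x
    have h4 := htV x
    have h5 := htU _ h4
    refine ⟨_, h5, ?_⟩
    have h6 : ac t (ac t x) = ac t x + ac t (ac t x - x) := by
      rw [map_sub]
      have h7 := neg_self' h2 (ac t x)
      have h8 : ac t x + (ac t (ac t x) - ac t x) = ac t (ac t x) := by abel
      rw [h8]
    have h7 := neg_self' h2 (ac t x - x)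
    have h8 : x + (ac t (ac t x - x) - (ac t x - x)) = ac t x + ac t (ac t x - x) - ((ac t x - x) + (ac t x - x)) := by abel
    rw [h8, h7, sub_zero, ← h6]
  have h8 : s ^ 8 = t * (t * (t * t)) := by
    rw [ht]
    simp only [pow_succ, pow_zero, one_mul, mul_assoc]
  rw [h8]
  apply ac_ext
  intro x
  rw [ac_one, ac_mul, ac_mul, ac_mul]
  obtain ⟨w, hw, hwx⟩ := htt x
  rw [hwx, map_add, map_add, hwx, htW w hw, htW w hw, add_assoc, neg_self' h2, add_zero]

/-- a common non-trivial element -/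
theorem exists_common (hF : Fintype.card F = 2) (W W' : Submodule F (Fin m ⊕ Fin m → F)) (hk : finrank F W + 1 = m) (hk' : finrank F W' + 1 = m) :
    ∃ g : isometryGroup F (quadFormPlus m F), g ≠ 1 ∧ (∀ x ∈ W, ac g x = x) ∧ (∀ x ∈ W', ac g x = x) := by
  classical
  have h2 := two_zero hF
  obtain ⟨X, hX⟩ : ∃ X, X = (Bf F m).orthogonal (W ⊔ W') := ⟨_, rfl⟩
  have hmX : ∀ u, u ∈ X ↔ ∀ x ∈ W ⊔ W', Bf F m x u = 0 := by
    intro u; rw [hX, LinearMap.BilinForm.mem_orthogonal_iff]
  have hXr : 2 ≤ finrank F X := by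
    have h1 := Submodule.finrank_sup_add_finrank_inf_eq W W'
    rw [hX, finrank_orth]
    omega
  have hne : ∀ v : Fin m ⊕ Fin m → F, v ≠ 0 → ∃ x, Bf F m x v = 1 := by
    intro v hv
    by_contra hcon
    push Not at hcon
    apply hv
    apply Bf_left
    intro y
    rw [Bf_symm]
    exact (zero_or_one hF _).resolve_right (hcon y)
  by_cases hc : ∃ v ∈ X, quadFormPlus m F v ≠ 0
  · obtain ⟨v, hvX, hv⟩ := hc
    have hQv : quadFormPlus m F v = 1 := (zero_or_one hF _).resolve_left hv
    have hv0 : v ≠ 0 := by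
      rintro rfl
      apply hv
      simp [quadFormPlus]
    let T : (Fin m ⊕ Fin m → F) →ₗ[F] (Fin m ⊕ Fin m → F) := LinearMap.id + ((Bf F m).flip v).smulRight v
    have hT : ∀ x, T x = x + Bf F m x v • v := fun x => rfl
    obtain ⟨g, hg⟩ := mkG T (by
      intro x
      rw [hT, hT, map_add, map_smul, LinearMap.add_apply, LinearMap.smul_apply, Bf_self h2, smul_zero, add_zero, add_assoc, neg_self' h2, add_zero]) (by
      intro x
      rw [hT, Q_add, Q_smul, hQv, map_smul, smul_eq_mul]
      linear_combination (Bf F m x v) ^ 2 * h2)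
    have hfix : ∀ x ∈ W ⊔ W', ac g x = x := by
      intro x hx
      rw [hg, hT, (hmX v).1 hvX x hx, zero_smul, add_zero]
    refine ⟨g, ?_, fun x hx => hfix x (Submodule.mem_sup_left hx), fun x hx => hfix x (Submodule.mem_sup_right hx)⟩
    rintro rfl
    obtain ⟨x, hx⟩ := hne v hv0
    have h1 := hg x
    rw [ac_one, hT, hx, one_smul] at h1
    exact hv0 (left_eq_add.1 h1)
  · push Not at hc
    have hX0 : X ≠ ⊥ := by
      intro h
      rw [h, finrank_bot] at hXr
      omega
    obtain ⟨a, haX, ha0⟩ := Submodule.exists_mem_ne_zero_of_ne_bot hX0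
    obtain ⟨b, hbX, hba⟩ : ∃ b ∈ X, b ∉ Submodule.span F {a} := by
      by_contra hcon
      push Not at hcon
      have h1 := Submodule.finrank_mono (show X ≤ Submodule.span F {a} from hcon)
      rw [finrank_span_singleton ha0] at h1
      omega
    have hQa := hc a haX
    have hQb := hc b hbX
    have hab : Bf F m a b = 0 := by
      have h1 := Q_add a b
      rw [hc _ (X.add_mem haX hbX), hQa, hQb, add_zero, zero_add] at h1
      exact h1.symm
    have hba' : Bf F m b a = 0 := by rw [Bf_symm]; exact hab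
    let T : (Fin m ⊕ Fin m → F) →ₗ[F] (Fin m ⊕ Fin m → F) := LinearMap.id + ((Bf F m).flip a).smulRight b + ((Bf F m).flip b).smulRight a
    have hT : ∀ x, T x = x + Bf F m x a • b + Bf F m x b • a := fun x => rfl
    have hTa : ∀ x, Bf F m (T x) a = Bf F m x a := by
      intro x
      rw [hT]
      simp only [map_add, map_smul, LinearMap.add_apply, LinearMap.smul_apply, smul_eq_mul, hba', Bf_self h2]
      ring
    have hTb : ∀ x, Bf F m (T x) b = Bf F m x b := by
      intro x
      rw [hT]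
      simp only [map_add, map_smul, LinearMap.add_apply, LinearMap.smul_apply, smul_eq_mul, hab, Bf_self h2]
      ring
    obtain ⟨g, hg⟩ := mkG T (by
      intro x
      rw [hT (T x), hTa, hTb, hT]
      have h3 := neg_self' h2 (Bf F m x a • b)
      have h4 := neg_self' h2 (Bf F m x b • a)
      have h5 : x + Bf F m x a • b + Bf F m x b • a + Bf F m x a • b + Bf F m x b • a = x + (Bf F m x a • b + Bf F m x a • b) + (Bf F m x b • a + Bf F m x b • a) := by abel
      rw [h5, h3, h4, add_zero, add_zero]) (by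
      intro x
      rw [hT, Q_add, Q_add, Q_smul, Q_smul, hQa, hQb]
      simp only [map_add, map_smul, LinearMap.add_apply, LinearMap.smul_apply, smul_eq_mul, hba']
      linear_combination (Bf F m x a * Bf F m x b) * h2)
    have hfix : ∀ x ∈ W ⊔ W', ac g x = x := by
      intro x hx
      rw [hg, hT, (hmX a).1 haX x hx, (hmX b).1 hbX x hx, zero_smul, zero_smul, add_zero, add_zero]
    refine ⟨g, ?_, fun x hx => hfix x (Submodule.mem_sup_left hx), fun x hx => hfix x (Submodule.mem_sup_right hx)⟩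
    rintro rfl
    obtain ⟨x, hx⟩ := hne a ha0
    have h1 := hg x
    rw [ac_one, hT, hx, one_smul, add_assoc, left_eq_add] at h1
    apply hba
    rw [Submodule.mem_span_singleton]
    refine ⟨-Bf F m x b, ?_⟩
    rw [neg_smul]
    exact (eq_neg_of_add_eq_zero_left h1).symm

end ptw


end CfsgLib.OPl
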