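import Mathlib
import Cfsg.Agent.LibFus21PSL2q

set_option autoImplicit false

open Matrix

namespace CfsgLib.OddP

open CfsgLib.Fus21.PSL2

theorem graph2 {V : Type*} [Nonempty V] (G : SimpleGraph V) (h : ∀ u v, u ≠ v → G.Adj u v ∨ ∃ w, G.Adj u w ∧ G.Adj w v)
    (h' : ∃ u v, u ≠ v ∧ ¬ G.Adj u v) : G.Connected ∧ G.diam = 2 := by
  have h1 : ∀ u v, G.edist u v ≤ 2 := by
    intro u v
    by_cases huv : u = v
    · rw [huv, SimpleGraph.edist_self]; exact zero_le
    · rcases h u v huv with h2 | ⟨w, h2, h3⟩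
      · rw [SimpleGraph.edist_eq_one_iff_adj.2 h2]; norm_num
      · refine (SimpleGraph.edist_triangle (v := w)).trans ?_
        rw [SimpleGraph.edist_eq_one_iff_adj.2 h2, SimpleGraph.edist_eq_one_iff_adj.2 h3]; norm_num
  have h2 : G.ediam ≤ 2 := SimpleGraph.ediam_le_of_edist_le h1
  have h3 : G.ediam ≠ ⊤ := fun h4 => by rw [h4] at h2; exact absurd h2 (by decide)
  have hc : G.Connected := SimpleGraph.connected_of_ediam_ne_top h3
  refine ⟨hc, le_antisymm ?_ ?_⟩
  · have h4 := ENat.toNat_le_toNat h2 (by decide)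
    exact h4
  · obtain ⟨u, v, huv, hn⟩ := h'
    have h4 := hc.one_lt_dist_of_ne_of_not_adj huv hn
    have h5 := SimpleGraph.dist_le_diam h3 (u := u) (v := v)
    omega

section field

variable {F : Type*} [Field F] [Fintype F]

theorem nonsq_mul {a b : F} (ha : ¬ IsSquare a) (hb : ¬ IsSquare b) : IsSquare (a * b) := by
  classical
  have ha0 : a ≠ 0 := by rintro rfl; exact ha (IsSquare.zero)
  have hb0 : b ≠ 0 := by rintro rfl; exact hb (IsSquare.zero)
  rw [← quadraticChar_one_iff_isSquare (mul_ne_zero ha0 hb0), map_mul, quadraticChar_neg_one_iff_not_isSquare.2 ha,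
    quadraticChar_neg_one_iff_not_isSquare.2 hb]
  norm_num

theorem neg_sq (h3 : Fintype.card F % 4 = 3) : ¬ IsSquare (-1 : F) := by
  rw [FiniteField.isSquare_neg_one_iff]
  simpa using h3

theorem sq_neg_of_not (h3 : Fintype.card F % 4 = 3) {a : F} (ha : ¬ IsSquare a) : IsSquare (-a) := by
  have := nonsq_mul (neg_sq h3) ha
  rwa [neg_one_mul] at this

theorem transl (h3 : Fintype.card F % 4 = 3) {e : F} (he : e ≠ 0) (c : F) : ∃ T : F, ¬ IsSquare ((T - c) ^ 2 + e ^ 2) := by
  by_contra hcon
  push Not at hcon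
  have h1 : ∀ n : ℕ, IsSquare ((n : F) * e ^ 2) := by
    intro n
    induction n with
    | zero => simp
    | succ n ih =>
      obtain ⟨s, hs⟩ := ih
      have h2 := hcon (s + c)
      rw [add_sub_cancel_right] at h2
      have h4 : ((n + 1 : ℕ) : F) * e ^ 2 = s ^ 2 + e ^ 2 := by
        push_cast
        linear_combination hs
      rw [h4]; exact h2
  obtain ⟨p, hp⟩ := CharP.exists F
  haveI : Fact p.Prime := ⟨CharP.char_is_prime F p⟩
  have hp1 : 1 ≤ p := (Fact.out : p.Prime).one_lt.le
  obtain ⟨s, hs⟩ := h1 (p - 1)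
  rw [Nat.cast_sub hp1, CharP.cast_eq_zero, Nat.cast_one, zero_sub] at hs
  apply neg_sq h3
  refine ⟨s / e, ?_⟩
  field_simp
  linear_combination hs

/-- the key existence statement -/
theorem exists_t (h3 : Fintype.card F % 4 = 3) (h5 : 5 ≤ Fintype.card F) {c e : F} (hce : 1 - c ^ 2 = e ^ 2) (he : e ≠ 0) :
    ∃ σ : F, (σ = 1 ∨ σ = -1) ∧ ∃ t s : F, t ≠ 0 ∧ t ^ 2 ≠ 1 ∧ -2 * (1 - σ * c) * (t ^ 4 - 2 * (σ * c) * t ^ 2 + 1) = s ^ 2 := by
  classical
  have hn := neg_sq h3
  have h2 : (2 : F) ≠ 0 := by
    intro h0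
    apply hn
    refine ⟨1, ?_⟩
    linear_combination -h0
  have hc1 : 1 - c ≠ 0 := by
    intro h
    apply he
    have : e ^ 2 = 0 := by rw [← hce]; linear_combination (1 + c) * h
    exact pow_eq_zero_iff (by norm_num) |>.1 this
  have hc2 : 1 + c ≠ 0 := by
    intro h
    apply he
    have : e ^ 2 = 0 := by rw [← hce]; linear_combination (1 - c) * h
    exact pow_eq_zero_iff (by norm_num) |>.1 this
  -- `h(T)` and the good `T`
  have key : ∃ T : F, T ≠ 0 ∧ T ≠ 1 ∧ T ≠ -1 ∧ IsSquare (-(2 * (1 - c)) * (T ^ 2 - 2 * c * T + 1)) := by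
    have hh : ∀ T : F, T ^ 2 - 2 * c * T + 1 = (T - c) ^ 2 + e ^ 2 := by
      intro T; linear_combination hce
    by_cases hs : IsSquare (2 * (1 - c))
    · obtain ⟨T, hT⟩ := transl h3 he c
      rw [← hh] at hT
      obtain ⟨r, hr⟩ := hs
      have hr0 : r ≠ 0 := by
        rintro rfl
        rw [mul_zero] at hr
        exact mul_ne_zero h2 hc1 hr
      refine ⟨T, ?_, ?_, ?_, ?_⟩
      · rintro rfl
        apply hT
        exact ⟨1, by ring⟩
      · rintro rfl
        apply hT
        exact ⟨r, by linear_combination hr⟩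
      · rintro rfl
        apply hT
        refine ⟨2 * e / r, ?_⟩
        field_simp
        linear_combination (-(2 + 2 * c)) * hr + 4 * hce
      · obtain ⟨w, hw⟩ := sq_neg_of_not h3 hT
        refine ⟨r * w, ?_⟩
        linear_combination (-(T ^ 2 - 2 * c * T + 1)) * hr + (r * r) * hw
    · obtain ⟨r, hr⟩ := sq_neg_of_not h3 hs
      obtain ⟨T, hT0, w, hw⟩ : ∃ T : F, T ≠ 0 ∧ ∃ w, T ^ 2 - 2 * c * T + 1 = w * w := by
        by_cases hc0 : c = 0
        · have : ∃ ρ : F, ρ ∉ ({0, 1, -1} : Finset F) := by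
            by_contra hcon
            push Not at hcon
            have h6 : Fintype.card F ≤ ({0, 1, -1} : Finset F).card := by
              rw [← Finset.card_univ]
              exact Finset.card_le_card (fun x _ => hcon x)
            have h7 : ({0, 1, -1} : Finset F).card ≤ 3 := Finset.card_le_three
            omega
          obtain ⟨ρ, hρ⟩ := this
          simp only [Finset.mem_insert, Finset.mem_singleton, not_or] at hρ
          obtain ⟨h6, h7, h8⟩ := hρ
          refine ⟨(ρ - ρ⁻¹) / 2, ?_, (ρ + ρ⁻¹) / 2, ?_⟩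
          · intro h9
            have h10 : (ρ - 1) * (ρ + 1) = 0 := by
              field_simp at h9
              linear_combination h9
            rcases mul_eq_zero.1 h10 with h | h
            · exact h7 (sub_eq_zero.1 h)
            · exact h8 (eq_neg_of_add_eq_zero_left h)
          · rw [hc0]
            field_simp
            ring
        · refine ⟨c, hc0, e, ?_⟩
          rw [hh]; ring
      refine ⟨T, hT0, ?_, ?_, ?_⟩
      · rintro rfl
        apply hs
        exact ⟨w, by linear_combination hw⟩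
      · rintro rfl
        have hw0 : w ≠ 0 := by
          rintro rfl
          apply hc2
          have : 2 * (1 + c) = 0 := by linear_combination hw
          exact (mul_eq_zero.1 this).resolve_left h2
        apply hs
        refine ⟨2 * e / w, ?_⟩
        field_simp
        linear_combination (-(1 - c)) * hw + 2 * hce
      · refine ⟨r * w, ?_⟩
        linear_combination (T ^ 2 - 2 * c * T + 1) * hr + (r * r) * hw
  obtain ⟨T, hT0, hT1, hT2, s, hs⟩ := key
  by_cases hT : IsSquare T
  · obtain ⟨t, rfl⟩ := hT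
    refine ⟨1, Or.inl rfl, t, s, ?_, ?_, ?_⟩
    · rintro rfl; exact hT0 (by ring)
    · intro h; exact hT1 (by linear_combination h)
    · linear_combination hs
  · obtain ⟨t, ht⟩ := sq_neg_of_not h3 hT
    refine ⟨-1, Or.inr rfl, t, s * e / (1 - c), ?_, ?_, ?_⟩
    · rintro rfl
      apply hT0
      linear_combination -ht
    · intro h
      apply hT2
      linear_combination -ht - h
    · have hT' : T = -(t * t) := by linear_combination -ht
      rw [hT'] at hs
      field_simp
      linear_combination ((1 - c) * (1 + c)) * hs + (s ^ 2) * hce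
  
end field

end CfsgLib.OddP
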