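import Mathlib
import Cfsg.Agent.LibOddPH13

set_option autoImplicit false

open Matrix

namespace CfsgLib.OddP

open CfsgLib.Fus21.PSL2

variable {F : Type*} [Field F]

local notation "SL2" => SpecialLinearGroup (Fin 2) F

theorem trace_eq' (C : SL2) : (C : Matrix (Fin 2) (Fin 2) F) * C = (C 0 0 + C 1 1) • (C : Matrix (Fin 2) (Fin 2) F) - 1 := by
  have hd := det_eq C
  ext i j
  fin_cases i <;> fin_cases j <;>
    simp only [Fin.zero_eta, Fin.mk_one, Fin.isValue, Matrix.mul_apply, Fin.sum_univ_two, Matrix.sub_apply, Matrix.smul_apply, smul_eq_mul, Matrix.one_apply_eq,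
      Matrix.one_apply_ne (show (0 : Fin 2) ≠ 1 by decide), Matrix.one_apply_ne (show (1 : Fin 2) ≠ 0 by decide)]
  · show C 0 0 * C 0 0 + C 0 1 * C 1 0 = (C 0 0 + C 1 1) * C 0 0 - 1
    linear_combination -hd
  · show C 0 0 * C 0 1 + C 0 1 * C 1 1 = (C 0 0 + C 1 1) * C 0 1 - 0
    ring
  · show C 1 0 * C 0 0 + C 1 1 * C 1 0 = (C 0 0 + C 1 1) * C 1 0 - 0
    ring
  · show C 1 0 * C 0 1 + C 1 1 * C 1 1 = (C 0 0 + C 1 1) * C 1 1 - 1
    linear_combination -hd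

theorem coe_pow' (C : SL2) (n : ℕ) : ((C ^ n : SL2) : Matrix (Fin 2) (Fin 2) F) = (C : Matrix (Fin 2) (Fin 2) F) ^ n := Matrix.SpecialLinearGroup.coe_pow C n

theorem odd_of_pow {C : SL2} {n : ℕ} (hn : Odd n) (h : (C : Matrix (Fin 2) (Fin 2) F) ^ n = 1 ∨ (C : Matrix (Fin 2) (Fin 2) F) ^ n = -1) :
    Odd (orderOf (pr F C)) := by
  have h1 : (pr F C) ^ n = 1 := by
    rw [← map_pow, pr_eq_one, coe_pow']; exact h
  exact hn.of_dvd_nat (orderOf_dvd_of_pow_eq_one h1)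

theorem odd_split [Fintype F] (h3 : Fintype.card F % 4 = 3) (C : SL2) {t : F} (ht0 : t ≠ 0) (ht : t ^ 2 ≠ 1) (htr : C 0 0 + C 1 1 = -(t + t⁻¹)) :
    Odd (orderOf (pr F C)) := by
  have hM := trace_eq' C
  rw [htr] at hM
  obtain ⟨M, hMd⟩ : ∃ M, M = (C : Matrix (Fin 2) (Fin 2) F) := ⟨_, rfl⟩
  rw [← hMd] at hM
  obtain ⟨s, hs⟩ : ∃ s, s = -t := ⟨_, rfl⟩
  obtain ⟨s', hs'⟩ : ∃ s', s' = -t⁻¹ := ⟨_, rfl⟩
  have hss : s * s' = 1 := by rw [hs, hs']; field_simp
  have hM' : M * M = (s + s') • M - 1 := by rw [hM, hs, hs']; congr 2; ring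
  have e1 : (M - s' • 1) * M = s • (M - s' • 1) := by
    rw [sub_mul, hM', smul_sub, smul_smul, hss, one_smul, add_smul, Matrix.smul_mul, Matrix.one_mul]; abel
  have e2 : (M - s • 1) * M = s' • (M - s • 1) := by
    rw [sub_mul, hM', smul_sub, smul_smul, mul_comm s' s, hss, one_smul, add_smul, Matrix.smul_mul, Matrix.one_mul]; abel
  have key : ∀ n : ℕ, (s - s') • M ^ n = s ^ n • (M - s' • 1) - s' ^ n • (M - s • (1 : Matrix (Fin 2) (Fin 2) F)) := by
    intro n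
    induction n with
    | zero =>
      rw [pow_zero, pow_zero, pow_zero, one_smul, one_smul, sub_smul]; abel
    | succ n ih =>
      rw [pow_succ, ← Matrix.smul_mul, ih, Matrix.sub_mul, Matrix.smul_mul, Matrix.smul_mul, e1, e2, smul_smul, smul_smul, ← pow_succ, ← pow_succ]
  obtain ⟨n, hn⟩ : ∃ n, n = (Fintype.card F - 1) / 2 := ⟨_, rfl⟩
  have hnodd : Odd n := by
    rw [Nat.odd_iff]; omega
  have htn : t ^ n = 1 ∨ t ^ n = -1 := by
    have h4 : t ^ n * t ^ n = 1 := by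
      rw [← pow_add, show n + n = Fintype.card F - 1 by omega]
      exact FiniteField.pow_card_sub_one_eq_one t ht0
    exact mul_self_eq_one_iff.1 h4
  have hsn : s ^ n = s' ^ n := by
    rw [hs, hs', hnodd.neg_pow, hnodd.neg_pow, inv_pow]
    rcases htn with h | h <;> rw [h] <;> norm_num
  have hne : s - s' ≠ 0 := by
    intro h
    apply ht
    rw [hs, hs'] at h
    field_simp at h
    linear_combination -h
  have h4 : M ^ n = s ^ n • (1 : Matrix (Fin 2) (Fin 2) F) := by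
    have h5 := key n
    rw [← hsn, ← smul_sub] at h5
    have h6 : M - s' • (1 : Matrix (Fin 2) (Fin 2) F) - (M - s • 1) = (s - s') • 1 := by rw [sub_smul]; abel
    rw [h6, smul_comm (s ^ n)] at h5
    exact smul_right_injective _ hne h5
  apply odd_of_pow hnodd
  rw [← hMd, h4, hs, hnodd.neg_pow]
  rcases htn with h | h
  · right; rw [h, neg_smul, one_smul]
  · left; rw [h, neg_neg, one_smul]

theorem odd_unip [Fintype F] (hodd : Fintype.card F % 2 = 1) (C : SL2) {ε : F} (hε : ε = 1 ∨ ε = -1) (htr : C 0 0 + C 1 1 = 2 * ε) :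
    Odd (orderOf (pr F C)) := by
  have hM := trace_eq' C
  rw [htr] at hM
  obtain ⟨M, hMd⟩ : ∃ M, M = (C : Matrix (Fin 2) (Fin 2) F) := ⟨_, rfl⟩
  rw [← hMd] at hM
  obtain ⟨p, hp⟩ := CharP.exists F
  haveI : Fact p.Prime := ⟨CharP.char_is_prime F p⟩
  have hpodd : Odd p := by
    rcases (Fact.out : p.Prime).eq_two_or_odd' with h | h
    · exfalso
      have h1 := (CharP.cast_eq_zero_iff F p _).mp (FiniteField.cast_card_eq_zero F)
      rw [h] at h1
      omega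
    · exact h
  have hεε : ε * ε = 1 := by rcases hε with h | h <;> rw [h] <;> norm_num
  obtain ⟨N, hN⟩ : ∃ N, N = ε • M - 1 := ⟨_, rfl⟩
  have hMN : M = ε • (1 + N) := by
    rw [hN, add_sub_cancel, smul_smul, hεε, one_smul]
  have hNN : N * N = 0 := by
    rw [hN, sub_mul, mul_sub, mul_sub, Matrix.smul_mul, Matrix.mul_smul, hM, one_mul, mul_one, mul_one, smul_sub, smul_sub, smul_smul, smul_smul, smul_smul]
    have h1 : ε * ε * (2 * ε) = 2 * ε := by linear_combination (2 * ε) * hεε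
    have h2 : ε * ε = 1 := hεε
    rw [h1, h2, one_smul, two_mul, add_smul]; abel
  have key : ∀ k : ℕ, (1 + N) ^ k = 1 + (k : F) • N := by
    intro k
    induction k with
    | zero => simp
    | succ k ih =>
      rw [pow_succ, ih, mul_add, mul_one, add_mul, one_mul, Matrix.smul_mul, hNN, smul_zero, add_zero, Nat.cast_succ, add_smul, one_smul]; abel
  apply odd_of_pow hpodd
  rw [← hMd, hMN, smul_pow, key, CharP.cast_eq_zero, zero_smul, add_zero]
  rcases hε with h | h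
  · left; rw [h, one_pow, one_smul]
  · right; rw [h, hpodd.neg_one_pow, neg_one_smul]

theorem exists_Z (X Y : SL2) (h2 : (2 : F) ≠ 0) (hX : X 1 1 = -X 0 0) (hY : Y 1 1 = -Y 0 0) {c : F}
    (hc : (X * Y) 0 0 + (X * Y) 1 1 = -(2 * c)) {l n : F} (h : 2 * l ^ 2 * (1 + c) + n ^ 2 * (1 - c ^ 2) = 1) :
    ∃ Z : SL2, Z 1 1 = -Z 0 0 ∧ (X * Z) 0 0 + (X * Z) 1 1 = -(2 * (l * (1 + c))) ∧ (Z * Y) 0 0 + (Z * Y) 1 1 = -(2 * (l * (1 + c))) := by
  have dX := det_eq X
  have dY := det_eq Y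
  rw [hX] at dX
  rw [hY] at dY
  obtain ⟨x1, hx1⟩ : ∃ a, a = X 0 0 := ⟨_, rfl⟩
  obtain ⟨x2, hx2⟩ : ∃ a, a = X 0 1 := ⟨_, rfl⟩
  obtain ⟨x3, hx3⟩ : ∃ a, a = X 1 0 := ⟨_, rfl⟩
  obtain ⟨y1, hy1⟩ : ∃ a, a = Y 0 0 := ⟨_, rfl⟩
  obtain ⟨y2, hy2⟩ : ∃ a, a = Y 0 1 := ⟨_, rfl⟩
  obtain ⟨y3, hy3⟩ : ∃ a, a = Y 1 0 := ⟨_, rfl⟩
  rw [CfsgLib.Fus21.PSL2.mul_apply', CfsgLib.Fus21.PSL2.mul_apply', hX, hY, ← hx1, ← hx2, ← hx3, ← hy1, ← hy2, ← hy3] at hc
  rw [← hx1, ← hx2, ← hx3] at dX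
  rw [← hy1, ← hy2, ← hy3] at dY
  obtain ⟨z1, hz1⟩ : ∃ a, a = l * (x1 + y1) + n * (x1 * y1 + x2 * y3 + c) := ⟨_, rfl⟩
  obtain ⟨z2, hz2⟩ : ∃ a, a = l * (x2 + y2) + n * (x1 * y2 - x2 * y1) := ⟨_, rfl⟩
  obtain ⟨z3, hz3⟩ : ∃ a, a = l * (x3 + y3) + n * (x3 * y1 - x1 * y3) := ⟨_, rfl⟩
  have hdet : z1 * (-z1) - z2 * z3 = 1 := by
    rw [hz1, hz2, hz3]
    linear_combination h + (l ^ 2 + n ^ 2 * (-(y1 ^ 2) - y2 * y3)) * dX + (l ^ 2 + n ^ 2) * dY +
      (-(l ^ 2) - l * n * (x1 + y1) - n ^ 2 * (x1 * y1 + x2 * y3)) * hc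
  obtain ⟨Z, h00, h01, h10, h11⟩ : ∃ Z : SL2, Z 0 0 = z1 ∧ Z 0 1 = z2 ∧ Z 1 0 = z3 ∧ Z 1 1 = -z1 :=
    ⟨⟨!![z1, z2; z3, -z1], by rw [det_fin_two]; show z1 * (-z1) - z2 * z3 = 1; exact hdet⟩, rfl, rfl, rfl, rfl⟩
  refine ⟨Z, by rw [h11, h00], ?_, ?_⟩
  · rw [CfsgLib.Fus21.PSL2.mul_apply', CfsgLib.Fus21.PSL2.mul_apply', hX, ← hx1, ← hx2, ← hx3, h00, h01, h10, h11, hz1, hz2, hz3]
    linear_combination (-2 * l) * dX + (l + n * x1) * hc
  · rw [CfsgLib.Fus21.PSL2.mul_apply', CfsgLib.Fus21.PSL2.mul_apply', hY, ← hy1, ← hy2, ← hy3, h00, h01, h10, h11, hz1, hz2, hz3]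
    linear_combination (-2 * l) * dY + (l + n * y1) * hc

theorem alg {t d e s : F} (h2 : (2 : F) ≠ 0) (ht0 : t ≠ 0) (hd : 1 + d ≠ 0) (he : e ≠ 0) (hs : -2 * (1 - d) * (t ^ 4 - 2 * d * t ^ 2 + 1) = s ^ 2)
    (hc : 1 - d ^ 2 = e ^ 2) : 2 * ((t + t⁻¹) / 2 / (1 + d)) ^ 2 * (1 + d) + (s / (2 * t * e ^ 2)) ^ 2 * (1 - d ^ 2) = 1 := by
  have h1 : 2 * ((t + t⁻¹) / 2 / (1 + d)) ^ 2 * (1 + d) = (t ^ 2 + 1) ^ 2 / (2 * t ^ 2 * (1 + d)) := by
    field_simp
  have h3 : (s / (2 * t * e ^ 2)) ^ 2 * (1 - d ^ 2) = s ^ 2 / (4 * t ^ 2 * e ^ 2) := by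
    rw [hc, show (4 : F) = 2 * 2 by norm_num]; field_simp
  rw [h1, h3, ← hs, ← hc]
  have h4 : (1 : F) - d ^ 2 ≠ 0 := by rw [hc]; exact pow_ne_zero 2 he
  have h5 : (1 : F) - d ≠ 0 := by
    intro h; apply h4
    linear_combination (1 + d) * h
  have h6 : (1 : F) - d ^ 2 = (1 - d) * (1 + d) := by ring
  have h44 : (4 : F) = 2 * 2 := by norm_num
  rw [h6, h44]
  field_simp
  ring

/-- common neighbour, `q` odd: either the product has odd order or there is a third involution -/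
theorem odd_case [Fintype F] (hodd : Fintype.card F % 2 = 1) (h5 : 5 ≤ Fintype.card F) (X Y : SL2) (hX : X 1 1 = -X 0 0) (hY : Y 1 1 = -Y 0 0) :
    Odd (orderOf (pr F X * pr F Y)) ∨ ∃ Z : SL2, Z 1 1 = -Z 0 0 ∧ Odd (orderOf (pr F X * pr F Z)) ∧ Odd (orderOf (pr F Z * pr F Y)) := by
  classical
  have h2 : (2 : F) ≠ 0 := by
    intro h0
    obtain ⟨p, hp⟩ := CharP.exists F
    haveI : Fact p.Prime := ⟨CharP.char_is_prime F p⟩
    have h1 : p ∣ 2 := (CharP.cast_eq_zero_iff F p 2).mp (by exact_mod_cast h0)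
    have h3 := (Nat.prime_dvd_prime_iff_eq (CharP.char_is_prime F _) Nat.prime_two).mp h1
    have h4 := (CharP.cast_eq_zero_iff F p _).mp (FiniteField.cast_card_eq_zero F)
    rw [h3] at h4
    omega
  obtain ⟨c, hc⟩ : ∃ c : F, (X * Y) 0 0 + (X * Y) 1 1 = -(2 * c) := by
    refine ⟨-((X * Y) 0 0 + (X * Y) 1 1) / 2, ?_⟩
    field_simp
  simp only [← map_mul]
  by_cases hc1 : c ^ 2 = 1
  · left
    have h1 : c = 1 ∨ c = -1 := by
      have : (c - 1) * (c + 1) = 0 := by linear_combination hc1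
      rcases mul_eq_zero.1 this with h | h
      · left; exact sub_eq_zero.1 h
      · right; exact eq_neg_of_add_eq_zero_left h
    apply odd_unip hodd (X * Y) (ε := -c)
    · rcases h1 with h | h
      · right; rw [h]
      · left; rw [h, neg_neg]
    · rw [hc]; ring
  have hcp : 1 + c ≠ 0 := by
    intro h; apply hc1; have : c = -1 := by linear_combination h
    rw [this]; ring
  have hcm : 1 - c ≠ 0 := by
    intro h; apply hc1; have : c = 1 := by linear_combination -h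
    rw [this]; ring
  by_cases h3 : Fintype.card F % 4 = 3
  · by_cases hsq : IsSquare (1 - c ^ 2)
    · right
      obtain ⟨e, he⟩ := hsq
      have he' : 1 - c ^ 2 = e ^ 2 := by rw [he]; ring
      have he0 : e ≠ 0 := by
        rintro rfl
        apply hc1
        linear_combination -he'
      obtain ⟨σ, hσ, t, s, ht0, ht1, hs⟩ := exists_t h3 h5 he' he0
      -- replace `Y` by `σ Y`
      have hσσ : σ * σ = 1 := by rcases hσ with h | h <;> rw [h] <;> norm_num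
      obtain ⟨Y', hY', hprY, hcY⟩ : ∃ Y' : SL2, Y' 1 1 = -Y' 0 0 ∧ pr F Y' = pr F Y ∧ (X * Y') 0 0 + (X * Y') 1 1 = -(2 * (σ * c)) := by
        rcases hσ with h | h
        · exact ⟨Y, hY, rfl, by rw [h, hc]; ring⟩
        · refine ⟨-Y, ?_, ?_, ?_⟩
          · show -(Y 1 1) = -(-(Y 0 0))
            rw [hY]
          · have h6 : pr F (-1 : SL2) = 1 := by rw [pr_eq_one]; right; rfl
            rw [← neg_one_mul, map_mul, h6, one_mul]
          · rw [mul_neg]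
            show -((X * Y) 0 0) + -((X * Y) 1 1) = _
            rw [h]
            linear_combination -hc
      have hc' : 1 - (σ * c) ^ 2 = e ^ 2 := by rw [mul_pow, pow_two σ, hσσ, one_mul, he']
      have hcp' : 1 + σ * c ≠ 0 := by
        intro h
        apply he0
        have : e ^ 2 = 0 := by rw [← hc']; linear_combination (1 - σ * c) * h
        exact pow_eq_zero_iff (by norm_num) |>.1 this
      obtain ⟨Z, hZ, h6, h7⟩ := exists_Z X Y' h2 hX hY' hcY (l := (t + t⁻¹) / 2 / (1 + σ * c)) (n := s / (2 * t * e ^ 2)) (by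
        exact alg h2 ht0 hcp' he0 hs hc')
      have h8 : (t + t⁻¹) / 2 / (1 + σ * c) * (1 + σ * c) = (t + t⁻¹) / 2 := by field_simp
      rw [h8] at h6 h7
      refine ⟨Z, hZ, odd_split h3 _ ht0 ht1 (by rw [h6]; field_simp), ?_⟩
      have h9 : pr F (Z * Y) = pr F (Z * Y') := by rw [map_mul, map_mul, hprY]
      rw [h9]
      exact odd_split h3 _ ht0 ht1 (by rw [h7]; field_simp)
    · left
      obtain ⟨w, hw⟩ := sq_neg_of_not h3 hsq
      have hw' : c ^ 2 - w ^ 2 = 1 := by linear_combination hw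
      have ht0 : c + w ≠ 0 := by
        intro h
        have : (1 : F) = 0 := by rw [← hw']; linear_combination (c - w) * h
        exact one_ne_zero this
      have hinv : (c + w)⁻¹ = c - w := by
        rw [inv_eq_of_mul_eq_one_right]
        linear_combination hw'
      apply odd_split h3 (X * Y) ht0
      · intro h
        apply hc1
        have h6 : (c + w) = (c - w) := by
          apply mul_left_cancel₀ ht0
          linear_combination h - hw'
        have h7 : w = 0 := by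
          have : 2 * w = 0 := by linear_combination h6
          exact (mul_eq_zero.1 this).resolve_left h2
        rw [h7] at hw'
        linear_combination hw'
      · rw [hc, hinv]; ring
  · right
    have h1 : IsSquare (-1 : F) := by rw [FiniteField.isSquare_neg_one_iff]; exact h3
    obtain ⟨i, hi⟩ := h1
    obtain ⟨Z, hZ, h6, h7⟩ := exists_Z X Y h2 hX hY hc (l := 1 / (1 + c)) (n := i / (1 + c)) (by
      field_simp
      linear_combination (-(1 - c ^ 2)) * hi)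
    have h8 : 1 / (1 + c) * (1 + c) = 1 := by field_simp
    rw [h8] at h6 h7
    refine ⟨Z, hZ, odd_unip hodd _ (Or.inr rfl) (by rw [h6]; ring), odd_unip hodd _ (Or.inr rfl) (by rw [h7]; ring)⟩

end CfsgLib.OddP
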