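import Mathlib
import Cfsg.Agent.LibOddP2H13

set_option autoImplicit false

open Matrix

namespace CfsgLib.OddP

open CfsgLib.Fus21.PSL2

variable {F : Type*} [Field F]

local notation "SL2" => SpecialLinearGroup (Fin 2) F

/-- entries of an element with square 1, characteristic 2 -/
theorem entries (h2 : (2 : F) = 0) {N : SL2} (h : N * N = 1) : N 0 0 + N 1 1 = 0 := by
  have hd := det_eq N
  have e00 := congrArg (fun x : SL2 => x 0 0) h
  have e11 := congrArg (fun x : SL2 => x 1 1) h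
  have o0 : (1 : SL2) 0 0 = 1 := rfl
  have o1 : (1 : SL2) 1 1 = 1 := rfl
  simp only [CfsgLib.Fus21.PSL2.mul_apply', o0, o1] at e00 e11
  by_contra hne
  have h3 : N 0 0 = 0 := by
    have : N 0 0 * (N 0 0 + N 1 1) = 0 := by linear_combination e00 + hd + h2
    exact (mul_eq_zero.1 this).resolve_right hne
  have h4 : N 1 1 = 0 := by
    have : N 1 1 * (N 0 0 + N 1 1) = 0 := by linear_combination e11 + hd + h2
    exact (mul_eq_zero.1 this).resolve_right hne
  apply hne
  rw [h3, h4, add_zero]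

theorem one_of_entries (h2 : (2 : F) = 0) {N : SL2} (h : N * N = 1) (h01 : N 0 1 = 0) (h10 : N 1 0 = 0) : N = 1 := by
  have h1 := entries h2 h
  have hd := det_eq N
  have h3 : N 0 0 = 1 := by
    have h4 : N 1 1 = N 0 0 := by linear_combination h1 - (N 0 0) * h2
    rw [h4, h01, h10] at hd
    have : (N 0 0 - 1) ^ 2 = 0 := by linear_combination hd - (N 0 0 - 1) * h2
    have := pow_eq_zero_iff (by norm_num) |>.1 this
    linear_combination this
  have h4 : N 1 1 = 1 := by linear_combination h1 - h3 - h2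
  exact sl2_ext h3 h01 h10 h4

theorem even_odd [Fintype F] (h2 : (2 : F) = 0) (C : SL2) (htr : C 0 0 + C 1 1 ≠ 0) : Odd (orderOf (pr F C)) := by
  classical
  suffices h : Odd (orderOf C) from h.of_dvd_nat (orderOf_map_dvd _ _)
  by_contra hcon
  rw [Nat.not_odd_iff_even] at hcon
  obtain ⟨k, hk⟩ := hcon
  have hpos : 0 < orderOf C := orderOf_pos C
  obtain ⟨N, hN⟩ : ∃ N, N = C ^ k := ⟨_, rfl⟩
  have hNN : N * N = 1 := by rw [hN, ← pow_add, ← hk, pow_orderOf_eq_one]
  have hN1 : N ≠ 1 := by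
    intro h
    rw [hN] at h
    have := orderOf_le_of_pow_eq_one (by omega) h
    omega
  have hcomm : C * N = N * C := by rw [hN]; exact (Commute.refl C).pow_right k
  have h1 := entries h2 hNN
  have e01 := congrArg (fun x : SL2 => x 0 1) hcomm
  have e10 := congrArg (fun x : SL2 => x 1 0) hcomm
  simp only [CfsgLib.Fus21.PSL2.mul_apply'] at e01 e10
  apply hN1
  apply one_of_entries h2 hNN
  · have : N 0 1 * (C 0 0 + C 1 1) = 0 := by linear_combination e01 + (N 0 1 * C 1 1 - C 0 1 * N 1 1) * h2 + C 0 1 * h1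
    exact (mul_eq_zero.1 this).resolve_right htr
  · have : N 1 0 * (C 0 0 + C 1 1) = 0 := by linear_combination e10 + (N 1 0 * C 0 0 - C 1 0 * N 0 0) * h2 + C 1 0 * h1
    exact (mul_eq_zero.1 this).resolve_right htr

theorem even_case [Fintype F] (h2 : (2 : F) = 0) (X Y : SL2) (hX : X * X = 1) (hX1 : X ≠ 1) (hY : Y * Y = 1) (hY1 : Y ≠ 1) :
    Odd (orderOf (pr F X * pr F Y)) ∨ ∃ Z : SL2, Z * Z = 1 ∧ Z ≠ 1 ∧ Odd (orderOf (pr F X * pr F Z)) ∧ Odd (orderOf (pr F Z * pr F Y)) := by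
  simp only [← map_mul]
  have hx := entries h2 hX
  have hy := entries h2 hY
  have htr : (X * Y) 0 0 + (X * Y) 1 1 = X 0 1 * Y 1 0 + X 1 0 * Y 0 1 := by
    rw [CfsgLib.Fus21.PSL2.mul_apply', CfsgLib.Fus21.PSL2.mul_apply']
    linear_combination (X 0 0) * hy + (Y 1 1) * hx - (X 0 0) * (Y 1 1) * h2
  by_cases h : X 0 1 * Y 1 0 + X 1 0 * Y 0 1 = 0
  · right
    by_cases h01 : X 0 1 = 0
    · have h10 : X 1 0 ≠ 0 := fun h10 => hX1 (one_of_entries h2 hX h01 h10)
      have hy01 : Y 0 1 = 0 := by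
        rw [h01, zero_mul, zero_add] at h
        exact (mul_eq_zero.1 h).resolve_left h10
      have hy10 : Y 1 0 ≠ 0 := fun hy10 => hY1 (one_of_entries h2 hY hy01 hy10)
      obtain ⟨Z, z00, z01, z10, z11⟩ : ∃ Z : SL2, Z 0 0 = 1 ∧ Z 0 1 = 1 ∧ Z 1 0 = 0 ∧ Z 1 1 = 1 :=
        ⟨⟨!![1, 1; 0, 1], by rw [det_fin_two]; show (1 : F) * 1 - 1 * 0 = 1; ring⟩, rfl, rfl, rfl, rfl⟩
      refine ⟨Z, ?_, ?_, even_odd h2 _ ?_, even_odd h2 _ ?_⟩
      · apply sl2_ext <;> simp only [CfsgLib.Fus21.PSL2.mul_apply', z00, z01, z10, z11]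
        · show (1 : F) * 1 + 1 * 0 = 1; ring
        · show (1 : F) * 1 + 1 * 1 = 0; linear_combination h2
        · show (0 : F) * 1 + 1 * 0 = 0; ring
        · show (0 : F) * 1 + 1 * 1 = 1; ring
      · rintro rfl
        exact zero_ne_one (α := F) z01
      · rw [CfsgLib.Fus21.PSL2.mul_apply', CfsgLib.Fus21.PSL2.mul_apply', z00, z01, z10, z11]
        intro h9; apply h10
        linear_combination h9 - hx
      · rw [CfsgLib.Fus21.PSL2.mul_apply', CfsgLib.Fus21.PSL2.mul_apply', z00, z01, z10, z11]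
        intro h9; apply hy10
        linear_combination h9 - hy
    · have hy01 : Y 0 1 ≠ 0 := by
        intro hy01
        rw [hy01, mul_zero, add_zero] at h
        exact hY1 (one_of_entries h2 hY hy01 ((mul_eq_zero.1 h).resolve_left h01))
      obtain ⟨Z, z00, z01, z10, z11⟩ : ∃ Z : SL2, Z 0 0 = 1 ∧ Z 0 1 = 0 ∧ Z 1 0 = 1 ∧ Z 1 1 = 1 :=
        ⟨⟨!![1, 0; 1, 1], by rw [det_fin_two]; show (1 : F) * 1 - 0 * 1 = 1; ring⟩, rfl, rfl, rfl, rfl⟩
      refine ⟨Z, ?_, ?_, even_odd h2 _ ?_, even_odd h2 _ ?_⟩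
      · apply sl2_ext <;> simp only [CfsgLib.Fus21.PSL2.mul_apply', z00, z01, z10, z11]
        · show (1 : F) * 1 + 0 * 1 = 1; ring
        · show (1 : F) * 0 + 0 * 1 = 0; ring
        · show (1 : F) * 1 + 1 * 1 = 0; linear_combination h2
        · show (1 : F) * 0 + 1 * 1 = 1; ring
      · rintro rfl
        exact zero_ne_one (α := F) z10
      · rw [CfsgLib.Fus21.PSL2.mul_apply', CfsgLib.Fus21.PSL2.mul_apply', z00, z01, z10, z11]
        intro h9; apply h01
        linear_combination h9 - hx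
      · rw [CfsgLib.Fus21.PSL2.mul_apply', CfsgLib.Fus21.PSL2.mul_apply', z00, z01, z10, z11]
        intro h9; apply hy01
        linear_combination h9 - hy
  · left
    exact even_odd h2 _ (by rw [htr]; exact h)

/-- assembly -/
theorem final {P : Type*} [Group P] (K : ∀ x y : P, orderOf x = 2 → orderOf y = 2 → Odd (orderOf (x * y)) ∨ ∃ z, orderOf z = 2 ∧ Odd (orderOf (x * z)) ∧ Odd (orderOf (z * y)))
    (C : ∀ x y : P, orderOf x = 2 → orderOf y = 2 → IsConj x y) (N : ∃ x y : P, orderOf x = 2 ∧ orderOf y = 2 ∧ orderOf (x * y) = 2) (t : P) (ht : orderOf t = 2) :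
    (SimpleGraph.fromRel fun x y : {x : P // IsConj t x} => Odd (orderOf (x.1 * y.1))).Connected ∧
      (SimpleGraph.fromRel fun x y : {x : P // IsConj t x} => Odd (orderOf (x.1 * y.1))).diam = 2 := by
  have hord : ∀ x : P, IsConj t x → orderOf x = 2 := by
    intro x hx
    obtain ⟨c, rfl⟩ := isConj_iff.1 hx
    rw [← ht]
    exact (MulAut.conj c).orderOf_eq t
  haveI : Nonempty {x : P // IsConj t x} := ⟨⟨t, IsConj.refl t⟩⟩
  have hsq : ∀ x : P, orderOf x = 2 → x * x = 1 := by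
    intro x hx
    rw [← pow_two, ← hx, pow_orderOf_eq_one]
  apply graph2
  · intro u v huv
    rcases K u.1 v.1 (hord _ u.2) (hord _ v.2) with h | ⟨z, hz, h1, h3⟩
    · left
      rw [SimpleGraph.fromRel_adj]
      exact ⟨huv, Or.inl h⟩
    · by_cases hzu : z = u.1
      · left
        rw [SimpleGraph.fromRel_adj]
        rw [hzu] at h3
        exact ⟨huv, Or.inl h3⟩
      · by_cases hzv : z = v.1
        · left
          rw [SimpleGraph.fromRel_adj]
          rw [hzv] at h1
          exact ⟨huv, Or.inl h1⟩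
        · right
          refine ⟨⟨z, C t z ht hz⟩, ?_, ?_⟩
          · rw [SimpleGraph.fromRel_adj]
            exact ⟨fun h => hzu (congrArg Subtype.val h).symm, Or.inl h1⟩
          · rw [SimpleGraph.fromRel_adj]
            exact ⟨fun h => hzv (congrArg Subtype.val h), Or.inl h3⟩
  · obtain ⟨x, y, hx, hy, hxy⟩ := N
    refine ⟨⟨x, C t x ht hx⟩, ⟨y, C t y ht hy⟩, ?_, ?_⟩
    · intro h
      have h1 : x = y := congrArg Subtype.val h
      rw [← h1, hsq x hx, orderOf_one] at hxy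
      exact absurd hxy (by decide)
    · rw [SimpleGraph.fromRel_adj]
      rintro ⟨-, h | h⟩
      · have h' : Odd (orderOf (x * y)) := h
        rw [hxy] at h'
        exact absurd h' (by decide)
      · have h' : Odd (orderOf (y * x)) := h
        have h1 : y * x = (x * y)⁻¹ := by
          rw [_root_.mul_inv_rev, inv_eq_of_mul_eq_one_right (hsq y hy), inv_eq_of_mul_eq_one_right (hsq x hx)]
        rw [h1, orderOf_inv, hxy] at h'
        exact absurd h' (by decide)

end CfsgLib.OddP
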