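import Mathlib

set_option autoImplicit false

open Equiv

namespace CfsgLib.OddS

variable {α : Type*} [Fintype α] [DecidableEq α]

theorem lemA {σ : Perm α} {a b d : α} (hab : a ≠ b) (had : a ≠ d) (hbd : b ≠ d) (ha : σ a = a) (hb : σ b = b) (ho : Odd (orderOf σ)) :
    Odd (orderOf (swap b d * swap a b * σ)) := by
  obtain ⟨τ, hτ⟩ : ∃ τ, τ = swap b d * swap a b * σ := ⟨_, rfl⟩
  rw [← hτ]
  have e1 : τ a = d := by rw [hτ, Perm.mul_apply, Perm.mul_apply, ha, swap_apply_left, swap_apply_left]
  have e2 : τ b = a := by rw [hτ, Perm.mul_apply, Perm.mul_apply, hb, swap_apply_right, swap_apply_of_ne_of_ne hab had]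
  have e3 : ∀ p, σ p = d → τ p = b := by
    intro p hp
    rw [hτ, Perm.mul_apply, Perm.mul_apply, hp, swap_apply_of_ne_of_ne had.symm hbd.symm, swap_apply_right]
  have e4 : ∀ p, p ≠ a → p ≠ b → σ p ≠ d → τ p = σ p := by
    intro p h1 h2 h3
    have h4 : σ p ≠ a := fun h => h1 (σ.injective (h.trans ha.symm))
    have h5 : σ p ≠ b := fun h => h2 (σ.injective (h.trans hb.symm))
    rw [hτ, Perm.mul_apply, Perm.mul_apply, swap_apply_of_ne_of_ne h4 h5, swap_apply_of_ne_of_ne h5 h3]
  obtain ⟨m, hm⟩ : ∃ m, m = Function.minimalPeriod σ d := ⟨_, rfl⟩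
  have hper : ∀ k : ℕ, (σ ^ k) d = d ↔ m ∣ k := by
    intro k
    rw [hm, ← Function.isPeriodicPt_iff_minimalPeriod_dvd, Function.IsPeriodicPt, Function.IsFixedPt, Perm.iterate_eq_pow]
  have hmn : m ∣ orderOf σ := (hper _).1 (by rw [pow_orderOf_eq_one]; rfl)
  have hmpos : 0 < m := Nat.pos_of_dvd_of_pos hmn (orderOf_pos σ)
  have hfa : ∀ k : ℕ, (σ ^ k) a = a := fun k => Perm.pow_apply_eq_self_of_apply_eq_self ha k
  have hfb : ∀ k : ℕ, (σ ^ k) b = b := fun k => Perm.pow_apply_eq_self_of_apply_eq_self hb k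
  have hodd : Odd (orderOf σ * (m + 2)) := by
    apply ho.mul
    exact Odd.add_even (ho.of_dvd_nat hmn) (by decide)
  have k1 : ∀ i : ℕ, i < m → (τ ^ i) d = (σ ^ i) d := by
    intro i
    induction i with
    | zero => intro _; rfl
    | succ i ih =>
      intro hi
      rw [pow_succ', Perm.mul_apply, ih (by omega), pow_succ', Perm.mul_apply]
      apply e4
      · intro h
        exact had ((σ ^ i).injective (h.trans (hfa i).symm)).symm
      · intro h
        exact hbd ((σ ^ i).injective (h.trans (hfb i).symm)).symm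
      · intro h
        rw [← Perm.mul_apply, ← pow_succ'] at h
        have := Nat.le_of_dvd (by omega) ((hper _).1 h)
        omega
  have k2 : (τ ^ m) d = b := by
    obtain ⟨m', rfl⟩ : ∃ m', m = m' + 1 := ⟨m - 1, by omega⟩
    rw [pow_succ', Perm.mul_apply, k1 m' (by omega)]
    apply e3
    rw [← Perm.mul_apply, ← pow_succ']
    exact (hper _).2 dvd_rfl
  have k3 : (τ ^ (m + 1)) d = a := by rw [pow_succ', Perm.mul_apply, k2, e2]
  have k4 : (τ ^ (m + 2)) d = d := by rw [pow_succ', Perm.mul_apply, k3, e1]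
  have sb : τ.SameCycle d b := ⟨m, by rw [zpow_natCast, k2]⟩
  have sa : τ.SameCycle d a := ⟨m + 1, by rw [← Nat.cast_succ, zpow_natCast, Nat.succ_eq_add_one, k3]⟩
  have hfin : τ ^ (orderOf σ * (m + 2)) = 1 := by
    ext p
    by_cases hp : τ.SameCycle d p
    · obtain ⟨i, rfl⟩ := hp
      rw [mul_comm, pow_mul, ← Perm.mul_apply, ← zpow_natCast (τ ^ (m + 2)), ← zpow_natCast τ, ← zpow_mul, ← zpow_add, add_comm, zpow_add, Perm.mul_apply,
        zpow_mul, zpow_natCast τ]
      have : ((τ ^ (m + 2)) ^ ((orderOf σ : ℕ) : ℤ)) d = d := Perm.zpow_apply_eq_self_of_apply_eq_self k4 _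
      rw [this]; rfl
    · have k5 : ∀ k : ℕ, (τ ^ k) p = (σ ^ k) p := by
        intro k
        induction k with
        | zero => rfl
        | succ k ih =>
          have h1 : ¬ τ.SameCycle d ((τ ^ k) p) := by
            rw [Perm.sameCycle_pow_right]; exact hp
          rw [pow_succ', Perm.mul_apply, pow_succ', Perm.mul_apply, ← ih]
          apply e4
          · intro h; rw [h] at h1; exact h1 sa
          · intro h; rw [h] at h1; exact h1 sb
          · intro h
            have h2 := e3 _ h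
            apply h1
            rw [← Perm.sameCycle_apply_right, h2]; exact sb
      rw [k5, pow_mul, pow_orderOf_eq_one, one_pow]
  exact hodd.of_dvd_nat (orderOf_dvd_of_pow_eq_one hfin)

/-- an involution (or the identity) moving only points of `S` -/
def Inv (S : Finset α) (x : Perm α) : Prop := x * x = 1 ∧ ∀ p, p ∉ S → x p = p

theorem Inv.app {S : Finset α} {x : Perm α} (h : Inv S x) (p : α) : x (x p) = p := by
  have := congrArg (fun f : Perm α => f p) h.1
  exact this

theorem disj {a b : α} {x : Perm α} (ha : x a = a) (hb : x b = b) : Perm.Disjoint (swap a b) x := by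
  intro p
  by_cases h1 : p = a
  · right; rw [h1, ha]
  by_cases h2 : p = b
  · right; rw [h2, hb]
  left; exact swap_apply_of_ne_of_ne h1 h2

theorem comp {S : Finset α} {x : Perm α} {a b : α} (hab : a ≠ b) (ha : a ∉ S) (hb : b ∉ S) (h : Inv S x) :
    Inv (insert a (insert b S)) (swap a b * x) ∧ (swap a b * x).support.card = x.support.card + 2 := by
  have hd := disj (h.2 a ha) (h.2 b hb)
  refine ⟨⟨?_, ?_⟩, ?_⟩
  · have hc := hd.commute
    rw [mul_assoc, ← mul_assoc x, ← hc.eq, mul_assoc, h.1, mul_one, swap_mul_self]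
  · intro p hp
    simp only [Finset.mem_insert, not_or] at hp
    rw [Perm.mul_apply, h.2 p hp.2.2, swap_apply_of_ne_of_ne hp.1 hp.2.1]
  · rw [hd.card_support_mul, Perm.card_support_swap hab, add_comm]

theorem peel {S : Finset α} {x : Perm α} {a b : α} (hab : a ≠ b) (h : Inv S x) (hx : x a = b) :
    a ∈ S ∧ b ∈ S ∧ ∃ x', x = swap a b * x' ∧ Inv ((S.erase a).erase b) x' ∧ x.support.card = x'.support.card + 2 ∧
      x' a = a ∧ x' b = b ∧ ∀ p, p ≠ a → p ≠ b → x' p = x p := by
  have hb : x b = a := by rw [← hx, h.app]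
  have haS : a ∈ S := by by_contra hc; exact hab ((h.2 a hc).symm.trans hx)
  have hbS : b ∈ S := by by_contra hc; exact hab ((h.2 b hc).symm.trans hb).symm
  have e1 : (swap a b * x) a = a := by rw [Perm.mul_apply, hx, swap_apply_right]
  have e2 : (swap a b * x) b = b := by rw [Perm.mul_apply, hb, swap_apply_left]
  have e3 : ∀ p, p ≠ a → p ≠ b → (swap a b * x) p = x p := by
    intro p h1 h2
    rw [Perm.mul_apply, swap_apply_of_ne_of_ne]
    · intro h3; exact h2 (x.injective (h3.trans hb.symm))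
    · intro h3; exact h1 (x.injective (h3.trans hx.symm))
  have hI : Inv ((S.erase a).erase b) (swap a b * x) := by
    constructor
    · ext p
      rw [Perm.mul_apply, Perm.one_apply]
      by_cases h1 : p = a
      · rw [h1, e1, e1]
      by_cases h2 : p = b
      · rw [h2, e2, e2]
      rw [e3 p h1 h2, e3, h.app]
      · intro h3; exact h2 (x.injective (h3.trans hb.symm))
      · intro h3; exact h1 (x.injective (h3.trans hx.symm))
    · intro p hp
      by_cases h1 : p = a
      · rw [h1, e1]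
      by_cases h2 : p = b
      · rw [h2, e2]
      rw [e3 p h1 h2]
      apply h.2
      intro h3
      exact hp (Finset.mem_erase.2 ⟨h2, Finset.mem_erase.2 ⟨h1, h3⟩⟩)
  have hx' : x = swap a b * (swap a b * x) := by rw [← mul_assoc, swap_mul_self, one_mul]
  refine ⟨haS, hbS, _, hx', hI, ?_, e1, e2, e3⟩
  have := (comp hab (by simp) (by simp) hI).2
  rw [← hx'] at this
  exact this

/-- the good property -/
def Good (S : Finset α) (x y : Perm α) : Prop :=
  ∃ z, Inv S z ∧ z.support.card = x.support.card ∧ Odd (orderOf (x * z)) ∧ Odd (orderOf (y * z))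

theorem red {S S' : Finset α} {x y x' y' wx wy wz : Perm α} (hx : x = wx * x') (hy : y = wy * y') (hx' : Inv S' x') (hy' : Inv S' y')
    (hw : Inv S wz) (hwS : ∀ p, p ∈ S' → wz p = p) (hSS : S' ⊆ S) (hcard : x.support.card = x'.support.card + wz.support.card)
    (g : Good S' x' y') (ox : ∀ σ : Perm α, (∀ p, p ∉ S' → σ p = p) → Odd (orderOf σ) → Odd (orderOf (wx * wz * σ)))
    (oy : ∀ σ : Perm α, (∀ p, p ∉ S' → σ p = p) → Odd (orderOf σ) → Odd (orderOf (wy * wz * σ))) : Good S x y := by
  obtain ⟨z, hz, hzc, h1, h2⟩ := g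
  have hd : ∀ u : Perm α, Inv S' u → Perm.Disjoint wz u := by
    intro u hu p
    by_cases hp : p ∈ S'
    · left; exact hwS p hp
    · right; exact hu.2 p hp
  refine ⟨wz * z, ⟨?_, ?_⟩, ?_, ?_, ?_⟩
  · have hc := (hd z hz).commute
    rw [mul_assoc, ← mul_assoc z, ← hc.eq, mul_assoc, hz.1, mul_one, hw.1]
  · intro p hp
    rw [Perm.mul_apply, hz.2 p (fun h => hp (hSS h)), hw.2 p hp]
  · rw [(hd z hz).card_support_mul, hcard, hzc, add_comm]
  · have : x * (wz * z) = wx * wz * (x' * z) := by
      rw [hx, mul_assoc, ← mul_assoc x', ← (hd x' hx').commute.eq]; simp only [mul_assoc]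
    rw [this]
    exact ox _ (fun p hp => by rw [Perm.mul_apply, hz.2 p hp, hx'.2 p hp]) h1
  · have : y * (wz * z) = wy * wz * (y' * z) := by
      rw [hy, mul_assoc, ← mul_assoc y', ← (hd y' hy').commute.eq]; simp only [mul_assoc]
    rw [this]
    exact oy _ (fun p hp => by rw [Perm.mul_apply, hz.2 p hp, hy'.2 p hp]) h2

end CfsgLib.OddS
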