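import Mathlib
import Cfsg.Agent.LibOddSH13

set_option autoImplicit false

open Equiv

namespace CfsgLib.OddS

variable {α : Type*} [Fintype α] [DecidableEq α]

theorem emb {n : ℕ} (f : Fin n → α) (hf : Function.Injective f) : ∃ φ : Perm (Fin n) →* Perm α, Function.Injective φ ∧
    ∀ i j, φ (swap i j) = swap (f i) (f j) := by
  refine ⟨Perm.viaEmbeddingHom ⟨f, hf⟩, Perm.viaEmbeddingHom_injective _, ?_⟩
  intro i j
  ext p
  rw [Perm.viaEmbeddingHom_apply]
  by_cases hp : ∃ k, f k = p
  · obtain ⟨k, rfl⟩ := hp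
    have := Perm.viaEmbedding_apply (swap i j) ⟨f, hf⟩ k
    simp only [Function.Embedding.coeFn_mk] at this
    rw [this, ← hf.swap_apply]
  · rw [Perm.viaEmbedding_apply_of_notMem]
    · rw [swap_apply_of_ne_of_ne]
      · intro h; exact hp ⟨i, h.symm⟩
      · intro h; exact hp ⟨j, h.symm⟩
    · rintro ⟨k, hk⟩
      exact hp ⟨k, hk⟩

theorem emb' (l : List α) (hl : l.Nodup) : ∃ φ : Perm (Fin l.length) →* Perm α, Function.Injective φ ∧
    ∀ i j, φ (swap i j) = swap (l.get i) (l.get j) := emb _ (List.nodup_iff_injective_get.1 hl)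

theorem odd_emb {n : ℕ} {φ : Perm (Fin n) →* Perm α} {g : Perm (Fin n)} (k : ℕ) (hk : Odd k) (h : g ^ k = 1) : Odd (orderOf (φ g)) :=
  hk.of_dvd_nat (orderOf_dvd_of_pow_eq_one (by rw [← map_pow, h, map_one]))

theorem Inv.sub {S : Finset α} {x : Perm α} (h : Inv S x) : x.support ⊆ S := by
  intro p hp
  by_contra hc
  exact (Perm.mem_support.1 hp) (h.2 p hc)

theorem Inv.lt {S : Finset α} {x : Perm α} (h : Inv S x) {p : α} (hp : p ∈ S) (hx : x p = p) : x.support.card < S.card := by
  apply Finset.card_lt_card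
  refine ⟨h.sub, fun h1 => ?_⟩
  exact (Perm.mem_support.1 (h1 hp)) hx

theorem Inv.fpf {S : Finset α} {x : Perm α} (h : Inv S x) (hc : x.support.card = S.card) : ∀ p ∈ S, x p ≠ p := by
  intro p hp hx
  have := h.lt hp hx
  omega

theorem Inv.mem {S : Finset α} {x : Perm α} (h : Inv S x) {p : α} (hp : p ∈ S) : x p ∈ S := by
  by_contra hc
  have h1 := h.2 _ hc
  rw [h.app] at h1
  rw [← h1] at hc
  exact hc hp

theorem Good.symm' {S : Finset α} {x y : Perm α} (hc : x.support.card = y.support.card) (h : Good S x y) : Good S y x := by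
  obtain ⟨z, h1, h2, h3, h4⟩ := h
  exact ⟨z, h1, h2.trans hc, h4, h3⟩

theorem good_self {S : Finset α} {x : Perm α} (h : Inv S x) : Good S x x := by
  refine ⟨x, h, rfl, ?_, ?_⟩ <;> rw [h.1, orderOf_one] <;> decide

theorem Good.mono {S S' : Finset α} {x y : Perm α} (hS : S' ⊆ S) (h : Good S' x y) : Good S x y := by
  obtain ⟨z, h1, h2, h3, h4⟩ := h
  exact ⟨z, ⟨h1.1, fun p hp => h1.2 p (fun h => hp (hS h))⟩, h2, h3, h4⟩

theorem two {S : Finset α} {x : Perm α} {p q r s : α} (hI : Inv S x) (hS : ∀ t ∈ S, t = p ∨ t = q ∨ t = r ∨ t = s) (hpq : p ≠ q) (hrs : r ≠ s)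
    (hpr : r ≠ p) (hqr : r ≠ q)
    (h1 : x p = q) (h2 : x r = s) : x = swap p q * swap r s := by
  obtain ⟨_, _, x1, e1, i1, c1, a1, b1, f1⟩ := peel hpq hI h1
  obtain ⟨_, _, x2, e2, i2, c2, a2, b2, f2⟩ := peel hrs i1 ((f1 r hpr hqr).trans h2)
  rw [e1, e2]
  have : x2 = 1 := by
    ext t
    rw [i2.2 t ?_]; rfl
    intro h
    simp only [Finset.mem_erase] at h
    rcases hS t h.2.2.2.2 with h3 | h3 | h3 | h3
    · exact h.2.2.2.1 h3
    · exact h.2.2.1 h3
    · exact h.2.1 h3
    · exact h.1 h3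
  rw [this, mul_one]

theorem four {S : Finset α} (hS : S.card = 4) {x y : Perm α} (hx : Inv S x) (hy : Inv S y) (cx : x.support.card = 4) (cy : y.support.card = 4)
    (hne : x ≠ y) (p : α) (hp : p ∈ S) : ∃ q r s, q ∈ S ∧ r ∈ S ∧ s ∈ S ∧ [p, q, r, s].Nodup ∧ x = swap p q * swap r s ∧ y = swap p r * swap q s := by
  have fx := hx.fpf (cx.trans hS.symm)
  have fy := hy.fpf (cy.trans hS.symm)
  -- any point `a` gives a description of both
  have hcov : ∀ a b c d : α, a ∈ S → b ∈ S → c ∈ S → d ∈ S → [a, b, c, d].Nodup → ∀ t ∈ S, t = a ∨ t = b ∨ t = c ∨ t = d := by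
    intro a b c d ha hb hc hd hn t ht
    have h1 : ({a, b, c, d} : Finset α).card = 4 := by
      have := List.toFinset_card_of_nodup hn
      simpa using this
    have h2 : ({a, b, c, d} : Finset α) = S := by
      apply Finset.eq_of_subset_of_card_le
      · intro u hu
        simp only [Finset.mem_insert, Finset.mem_singleton] at hu
        rcases hu with rfl | rfl | rfl | rfl <;> assumption
      · rw [h1, hS]
    rw [← h2] at ht
    simpa using ht
  by_cases hpxy : x p = y p
  · exfalso
    apply hne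
    obtain ⟨r, hr, hrp, hrq⟩ : ∃ r ∈ S, r ≠ p ∧ r ≠ x p := by
      by_contra hcon
      push Not at hcon
      have : S ⊆ {p, x p} := by
        intro t ht
        by_cases h : t = p
        · simp [h]
        · simp [hcon t ht h]
      have := Finset.card_le_card this
      have h2 : ({p, x p} : Finset α).card ≤ 2 := Finset.card_le_two
      omega
    have n1 : x r ≠ p := fun h => hrq (by rw [← h, hx.app])
    have n2 : x r ≠ x p := fun h => hrp (x.injective h)
    have hn : [p, x p, r, x r].Nodup := by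
      simp only [List.nodup_cons, List.mem_cons, List.not_mem_nil, or_false, not_or, not_false_eq_true, List.nodup_nil, and_true]
      exact ⟨⟨(fx p hp).symm, hrp.symm, n1.symm⟩, ⟨hrq.symm, n2.symm⟩, (fx r hr).symm⟩
    have hS4 := hcov _ _ _ _ hp (hx.mem hp) hr (hx.mem hr) hn
    have hyr : y r = x r := by
      rcases hS4 _ (hy.mem hr) with h | h | h | h
      · exfalso; apply hrq; rw [hpxy, ← h, hy.app]
      · exfalso; rw [hpxy] at h; exact hrp (y.injective h)
      · exact absurd h (fy r hr)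
      · exact h
    rw [two hx hS4 (fx p hp).symm (fx r hr).symm hrp hrq rfl rfl, two hy hS4 (fx p hp).symm (fx r hr).symm hrp hrq hpxy.symm hyr]
  · have n1 : y p ≠ x p := fun h => hpxy h.symm
    have n3 : x (y p) ≠ p := by
      intro h
      have h5 := congrArg x h
      rw [hx.app] at h5
      exact n1 h5
    have n4 : x (y p) ≠ x p := fun h => (fy p hp) (x.injective h)
    have hn : [p, x p, y p, x (y p)].Nodup := by
      simp only [List.nodup_cons, List.mem_cons, List.not_mem_nil, or_false, not_or, not_false_eq_true, List.nodup_nil, and_true]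
      exact ⟨⟨(fx p hp).symm, (fy p hp).symm, n3.symm⟩, ⟨n1.symm, n4.symm⟩, (fx _ (hy.mem hp)).symm⟩
    refine ⟨x p, y p, x (y p), hx.mem hp, hy.mem hp, hx.mem (hy.mem hp), hn, ?_⟩
    · 
      have hS4 := hcov _ _ _ _ hp (hx.mem hp) (hy.mem hp) (hx.mem (hy.mem hp)) hn
      have hyxp : y (x p) = x (y p) := by
        rcases hS4 _ (hy.mem (hx.mem hp)) with h | h | h | h
        · exfalso; apply n1
          have h5 := congrArg y h
          rw [hy.app] at h5
          exact h5.symm
        · exact absurd h (fy _ (hx.mem hp))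
        · exfalso; exact (fx p hp) (y.injective h)
        · exact h
      refine ⟨two hx hS4 (fx p hp).symm (fx _ (hy.mem hp)).symm (fy p hp) n1 rfl rfl, ?_⟩
      apply two hy _ (fy p hp).symm n4.symm (fx p hp) n1.symm rfl hyxp
      intro t ht
      rcases hS4 t ht with h | h | h | h
      · exact Or.inl h
      · exact Or.inr (Or.inr (Or.inl h))
      · exact Or.inr (Or.inl h)
      · exact Or.inr (Or.inr (Or.inr h))

end CfsgLib.OddS
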