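import Mathlib
import Cfsg.Agent.LibOddS2H13

set_option autoImplicit false

open Equiv

namespace CfsgLib.OddS

section gen

variable {β : Type*} [DecidableEq β]

/-- product of swaps -/
def sw : List (β × β) → Perm β
  | [] => 1
  | p :: l => swap p.1 p.2 * sw l

/-- flatten -/
def fl : List (β × β) → List β
  | [] => []
  | p :: l => p.1 :: p.2 :: fl l

end gen

variable {α : Type*} [Fintype α] [DecidableEq α]

theorem sw_inv (l : List (α × α)) (hl : (fl l).Nodup) : Inv (fl l).toFinset (sw l) ∧ (sw l).support.card = 2 * l.length := by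
  induction l with
  | nil =>
    refine ⟨⟨one_mul _, fun p _ => rfl⟩, ?_⟩
    simp [sw]
  | cons p l ih =>
    obtain ⟨p1, p2⟩ := p
    simp only [fl, List.nodup_cons, List.mem_cons, not_or] at hl
    obtain ⟨⟨h1, h2⟩, h3, h4⟩ := hl
    obtain ⟨h5, h6⟩ := ih h4
    obtain ⟨h7, h8⟩ := comp h1 (fun h => h2 (List.mem_toFinset.1 h)) (fun h => h3 (List.mem_toFinset.1 h)) h5
    refine ⟨?_, ?_⟩
    · simpa only [sw, fl, List.toFinset_cons] using h7
    · simp only [sw, List.length_cons]
      rw [h8, h6]; ring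

theorem map_sw {n : ℕ} (f : Fin n → α) (φ : Perm (Fin n) →* Perm α) (hφ : ∀ i j, φ (swap i j) = swap (f i) (f j)) (l : List (Fin n × Fin n)) :
    φ (sw l) = sw (l.map (Prod.map f f)) := by
  induction l with
  | nil => simp [sw]
  | cons p l ih => 
    simp only [sw, List.map_cons, map_mul, ih, hφ, Prod.map_fst, Prod.map_snd]

theorem map_fl {n : ℕ} (f : Fin n → α) (l : List (Fin n × Fin n)) : fl (l.map (Prod.map f f)) = (fl l).map f := by
  induction l with
  | nil => rfl
  | cons p l ih => simp only [fl, List.map_cons, ih, Prod.map_fst, Prod.map_snd]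

theorem exc {n : ℕ} {S : Finset α} (f : Fin n → α) (hf : Function.Injective f) (hS : ∀ i, f i ∈ S) (lx ly lz : List (Fin n × Fin n))
    (hx : (fl lx).Nodup) (hz : (fl lz).Nodup) (hlen : lz.length = lx.length) (k1 k2 : ℕ) (ho1 : Odd k1) (ho2 : Odd k2)
    (h1 : (sw lx * sw lz) ^ k1 = 1) (h2 : (sw ly * sw lz) ^ k2 = 1) {x y : Perm α} (ex : x = sw (lx.map (Prod.map f f)))
    (ey : y = sw (ly.map (Prod.map f f))) : Good S x y := by
  obtain ⟨φ, -, hφ⟩ := emb f hf
  have hz' := sw_inv (lz.map (Prod.map f f)) (by rw [map_fl]; exact hz.map hf)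
  have hx' := sw_inv (lx.map (Prod.map f f)) (by rw [map_fl]; exact hx.map hf)
  refine ⟨sw (lz.map (Prod.map f f)), ⟨hz'.1.1, ?_⟩, ?_, ?_, ?_⟩
  · intro p hp
    apply hz'.1.2
    rw [map_fl, List.mem_toFinset, List.mem_map]
    rintro ⟨i, _, rfl⟩
    exact hp (hS i)
  · rw [ex, hz'.2, hx'.2, List.length_map, List.length_map, hlen]
  · rw [ex, ← map_sw f φ hφ, ← map_sw f φ hφ, ← map_mul]
    exact odd_emb k1 ho1 h1
  · rw [ey, ← map_sw f φ hφ, ← map_sw f φ hφ, ← map_mul]
    exact odd_emb k2 ho2 h2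

theorem exc5 {S : Finset α} {p q r s u : α} (hn : [p, q, r, s, u].Nodup) (hS : ∀ t ∈ [p, q, r, s, u], t ∈ S) :
    Good S (swap p q * swap r s) (swap p r * swap q s) := by
  have hf : Function.Injective (![p, q, r, s, u] : Fin 5 → α) := by
    rw [← List.nodup_ofFn]
    simpa [List.ofFn_succ] using hn
  refine exc ![p, q, r, s, u] hf ?_ [(0, 1), (2, 3)] [(0, 2), (1, 3)] [(0, 1), (2, 4)] (by decide) (by decide) rfl 3 5 (by decide) (by decide)
    (by decide) (by decide) ?_ ?_
  · intro i
    apply hS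
    fin_cases i <;> simp
  · simp [sw]
  · simp [sw]

theorem exc6 {S : Finset α} {a b p q r s : α} (hn : [a, b, p, q, r, s].Nodup) (hS : ∀ t ∈ [a, b, p, q, r, s], t ∈ S) :
    Good S (swap a b * (swap p q * swap r s)) (swap a b * (swap p r * swap q s)) := by
  have hf : Function.Injective (![a, b, p, q, r, s] : Fin 6 → α) := by
    rw [← List.nodup_ofFn]
    simpa [List.ofFn_succ] using hn
  refine exc ![a, b, p, q, r, s] hf ?_ [(0, 1), (2, 3), (4, 5)] [(0, 1), (2, 4), (3, 5)] [(2, 0), (5, 1), (3, 4)] (by decide) (by decide) rfl 3 3 (by decide) (by decide)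
    (by decide) (by decide) ?_ ?_
  · intro i
    apply hS
    fin_cases i <;> simp
  · simp [sw]
  · simp [sw]

set_option maxRecDepth 100000 in
theorem exc8 {S : Finset α} {a b c d e f q s : α} (hn : [a, b, c, d, e, f, q, s].Nodup) (hS : ∀ t ∈ [a, b, c, d, e, f, q, s], t ∈ S) :
    Good S (swap a b * (swap d e * (swap c q * swap f s))) (swap c a * (swap b d * (swap e f * swap q s))) := by
  have hf : Function.Injective (![a, b, c, d, e, f, q, s] : Fin 8 → α) := by
    rw [← List.nodup_ofFn]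
    simpa [List.ofFn_succ] using hn
  refine exc ![a, b, c, d, e, f, q, s] hf ?_ [(0, 1), (3, 4), (2, 6), (5, 7)] [(2, 0), (1, 3), (4, 5), (6, 7)] [(0, 1), (4, 5), (3, 6), (7, 2)] (by decide) (by decide) rfl 3 3 (by decide) (by decide)
    (by decide) (by decide) ?_ ?_
  · intro i
    apply hS
    fin_cases i <;> simp
  · simp [sw]
  · simp [sw]

theorem word_long {a b c d e f : α} (hn : [a, b, c, d, e, f].Nodup) :
    swap c a * swap b d * swap e f * swap c f * (swap a b * swap d e) = swap a f * swap d a * (swap e c * swap b e) := by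
  have hf : Function.Injective (![a, b, c, d, e, f] : Fin 6 → α) := by
    rw [← List.nodup_ofFn]
    simpa [List.ofFn_succ] using hn
  obtain ⟨φ, -, hφ⟩ := emb _ hf
  have h := congrArg φ (show (swap 2 0 * swap 1 3 * swap 4 5 * swap 2 5 * (swap 0 1 * swap 3 4) : Perm (Fin 6)) = swap 0 5 * swap 3 0 * (swap 4 2 * swap 1 4) by decide)
  simp only [map_mul, hφ] at h
  exact h

theorem word_44x {a b c d p q r s : α} (hn : [a, b, c, d, p, q, r, s].Nodup) :
    swap a b * swap p q * swap r s * swap q s * (swap a p * swap b r) = swap r q * swap a r * (swap p s * swap b p) := by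
  have hf : Function.Injective (![a, b, c, d, p, q, r, s] : Fin 8 → α) := by
    rw [← List.nodup_ofFn]
    simpa [List.ofFn_succ] using hn
  obtain ⟨φ, -, hφ⟩ := emb _ hf
  have h := congrArg φ (show (swap 0 1 * swap 4 5 * swap 6 7 * swap 5 7 * (swap 0 4 * swap 1 6) : Perm (Fin 8)) = swap 6 5 * swap 0 6 * (swap 4 7 * swap 1 4) by decide)
  simp only [map_mul, hφ] at h
  exact h

theorem word_44y {a b c d p q r s : α} (hn : [a, b, c, d, p, q, r, s].Nodup) :
    swap a c * swap b d * swap p r * swap c d * (swap a p * swap b r) = swap a d * swap r a * (swap b c * swap p b) := by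
  have hf : Function.Injective (![a, b, c, d, p, q, r, s] : Fin 8 → α) := by
    rw [← List.nodup_ofFn]
    simpa [List.ofFn_succ] using hn
  obtain ⟨φ, -, hφ⟩ := emb _ hf
  have h := congrArg φ (show (swap 0 2 * swap 1 3 * swap 4 6 * swap 2 3 * (swap 0 4 * swap 1 6) : Perm (Fin 8)) = swap 0 3 * swap 6 0 * (swap 1 2 * swap 4 1) by decide)
  simp only [map_mul, hφ] at h
  exact h

end CfsgLib.OddS
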