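import Mathlib
import Cfsg.Agent.LibOddS3H13

set_option autoImplicit false

open Equiv

namespace CfsgLib.OddS

variable {α : Type*} [Fintype α] [DecidableEq α]

def IH (α : Type*) [Fintype α] [DecidableEq α] (n : ℕ) : Prop := ∀ (S : Finset α) (x y : Perm α), S.card < n → Inv S x → Inv S y →
  x.support.card = y.support.card → (S.card = 4 → x.support.card = 4 → x = y) → Good S x y

theorem inv_swap {S : Finset α} {a b : α} (ha : a ∈ S) (hb : b ∈ S) : Inv S (swap a b) := by
  refine ⟨swap_mul_self _ _, fun p hp => swap_apply_of_ne_of_ne ?_ ?_⟩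
  · rintro rfl; exact hp ha
  · rintro rfl; exact hp hb

theorem red2 {S : Finset α} {x y x' y' wx wy : Perm α} {a b : α} (ha : a ∈ S) (hb : b ∈ S) (hab : a ≠ b) (hx : x = wx * x') (hy : y = wy * y')
    (hx' : Inv ((S.erase a).erase b) x') (hy' : Inv ((S.erase a).erase b) y') (hcard : x.support.card = x'.support.card + 2)
    (g : Good ((S.erase a).erase b) x' y')
    (ox : ∀ σ : Perm α, σ a = a → σ b = b → Odd (orderOf σ) → Odd (orderOf (wx * swap a b * σ)))
    (oy : ∀ σ : Perm α, σ a = a → σ b = b → Odd (orderOf σ) → Odd (orderOf (wy * swap a b * σ))) : Good S x y := by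
  refine red hx hy hx' hy' (inv_swap ha hb) ?_ ?_ (by rw [Perm.card_support_swap hab]; exact hcard) g ?_ ?_
  · intro p hp
    simp only [Finset.mem_erase] at hp
    exact swap_apply_of_ne_of_ne hp.2.1 hp.1
  · intro p hp
    simp only [Finset.mem_erase] at hp
    exact hp.2.2
  · intro σ hσ ho; exact ox σ (hσ a (by simp)) (hσ b (by simp)) ho
  · intro σ hσ ho; exact oy σ (hσ a (by simp)) (hσ b (by simp)) ho

theorem card2 {S : Finset α} {a b : α} (ha : a ∈ S) (hb : b ∈ S) (hab : a ≠ b) : ((S.erase a).erase b).card < S.card := by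
  have h1 := Finset.card_erase_lt_of_mem ha
  have h2 := Finset.card_erase_lt_of_mem (Finset.mem_erase.2 ⟨hab.symm, hb⟩)
  omega

theorem case3 {S : Finset α} {x y : Perm α} (ih : IH α S.card) (hx : Inv S x) (hy : Inv S y) (hc : x.support.card = y.support.card)
    (hne : ∀ a ∈ S, x a ≠ y a) {a : α} (ha : a ∈ S) (hya : y a = a) (hyb : y (x a) ≠ x a) : Good S x y := by
  obtain ⟨b, hb⟩ : ∃ b, b = x a := ⟨_, rfl⟩
  rw [← hb] at hyb
  have hab : a ≠ b := by
    intro h
    exact hne a ha ((hb.symm.trans h.symm).trans hya.symm)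
  obtain ⟨d, hd⟩ : ∃ d, d = y b := ⟨_, rfl⟩
  have hbd : b ≠ d := by rw [hd]; exact hyb.symm
  have had : a ≠ d := by
    intro h
    rw [hd] at h
    apply hab
    have h5 := congrArg y h
    rw [hya, hy.app] at h5
    exact h5
  obtain ⟨_, hbS, x', ex, ix, cx, ax, bx, fx⟩ := peel hab hx hb.symm
  obtain ⟨_, hdS, y', ey, iy, cy, bby, dy, fy⟩ := peel hbd hy hd.symm
  have hy'a : y' a = a := (fy a hab had).trans hya
  have iy' : Inv ((S.erase a).erase b) y' := by
    refine ⟨iy.1, ?_⟩
    intro p hp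
    by_cases h1 : p = a
    · rw [h1, hy'a]
    by_cases h2 : p = b
    · rw [h2, bby]
    apply iy.2
    intro h3
    simp only [Finset.mem_erase] at h3 hp
    exact hp ⟨h2, h1, h3.2.2⟩
  refine red2 ha hbS hab ex ey ix iy' cx (ih _ x' y' (card2 ha hbS hab) ix iy' (by omega) ?_) ?_ ?_
  · intro h4 h5
    exfalso
    have := iy'.lt (p := d) (by simp only [Finset.mem_erase]; exact ⟨hbd.symm, had.symm, hdS⟩) dy
    omega
  · intro σ _ _ ho; rw [swap_mul_self, one_mul]; exact ho
  · intro σ h1 h2 ho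
    exact lemA hab had hbd h1 h2 ho

theorem case4 {S : Finset α} {x y : Perm α} (ih : IH α S.card) (hx : Inv S x) (hy : Inv S y) (hc : x.support.card = y.support.card)
    (hne : ∀ a ∈ S, x a ≠ y a) {a c : α} (ha : a ∈ S) (hya : y a = a) (hyb : y (x a) = x a) (hcS : c ∈ S) (hxc : x c = c) (hxd : x (y c) = y c) : Good S x y := by
  obtain ⟨b, hb⟩ : ∃ b, b = x a := ⟨_, rfl⟩
  rw [← hb] at hyb
  obtain ⟨d, hd⟩ : ∃ d, d = y c := ⟨_, rfl⟩
  rw [← hd] at hxd
  have hab : a ≠ b := by
    intro h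
    exact hne a ha ((hb.symm.trans h.symm).trans hya.symm)
  have hcd : c ≠ d := by
    intro h
    exact hne c hcS (hxc.trans (h.trans hd))
  have hyc : y c ≠ c := by rw [← hd]; exact hcd.symm
  have hyd : y d ≠ d := by rw [hd, hy.app]; exact hyc.symm
  have hac : a ≠ c := by rintro rfl; exact hyc hya
  have had : a ≠ d := by intro h; rw [← h] at hyd; exact hyd hya
  have hbc : b ≠ c := by intro h; rw [← h] at hyc; exact hyc hyb
  have hbd : b ≠ d := by intro h; rw [← h] at hyd; exact hyd hyb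
  obtain ⟨_, hbS, x', ex, ix, cx, ax, bx, fx⟩ := peel hab hx hb.symm
  obtain ⟨_, hdS, y', ey, iy, cy, ccy, dy, fy⟩ := peel hcd hy hd.symm
  have hx'c : x' c = c := (fx c hac.symm hbc.symm).trans hxc
  have hy'a : y' a = a := (fy a hac had).trans hya
  have ix' : Inv ((S.erase a).erase c) x' := by
    refine ⟨ix.1, ?_⟩
    intro p hp
    by_cases h1 : p = a
    · rw [h1, ax]
    by_cases h2 : p = c
    · rw [h2, hx'c]
    apply ix.2
    intro h3
    simp only [Finset.mem_erase] at h3 hp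
    exact hp ⟨h2, h1, h3.2.2⟩
  have iy' : Inv ((S.erase a).erase c) y' := by
    refine ⟨iy.1, ?_⟩
    intro p hp
    by_cases h1 : p = a
    · rw [h1, hy'a]
    by_cases h2 : p = c
    · rw [h2, ccy]
    apply iy.2
    intro h3
    simp only [Finset.mem_erase] at h3 hp
    exact hp ⟨h2, h1, h3.2.2⟩
  refine red2 ha hcS hac ex ey ix' iy' cx (ih _ x' y' (card2 ha hcS hac) ix' iy' (by omega) ?_) ?_ ?_
  · intro h4 h5
    exfalso
    have := ix'.lt (p := b) (by simp only [Finset.mem_erase]; exact ⟨hbc, hab.symm, hbS⟩) bx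
    omega
  · intro σ h1 h2 ho
    rw [swap_comm a c]
    exact lemA hac.symm hbc.symm hab h2 h1 ho
  · intro σ h1 h2 ho
    exact lemA hac had hcd h1 h2 ho

end CfsgLib.OddS
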