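import Mathlib
import Cfsg.Agent.LibOddS4H13

set_option autoImplicit false

open Equiv

namespace CfsgLib.OddS

variable {α : Type*} [Fintype α] [DecidableEq α]

theorem case5 {S : Finset α} {x y : Perm α} (ih : IH α S.card) (hx : Inv S x) (hy : Inv S y) (hc : x.support.card = y.support.card)
    (hne : ∀ a ∈ S, x a ≠ y a) (fpx : ∀ a ∈ S, x a ≠ a) (fpy : ∀ a ∈ S, y a ≠ a) {a : α} (ha : a ∈ S)
    (hl : x (y (x a)) ≠ y a) : Good S x y := by
  obtain ⟨b, hb⟩ : ∃ b, x a = b := ⟨_, rfl⟩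
  obtain ⟨d, hd⟩ : ∃ d, y b = d := ⟨_, rfl⟩
  obtain ⟨e, he⟩ : ∃ e, x d = e := ⟨_, rfl⟩
  obtain ⟨c, hcc⟩ : ∃ c, y a = c := ⟨_, rfl⟩
  obtain ⟨f, hf⟩ : ∃ f, y e = f := ⟨_, rfl⟩
  rw [hb, hd, he, hcc] at hl
  have hbS : b ∈ S := by rw [← hb]; exact hx.mem ha
  have hdS : d ∈ S := by rw [← hd]; exact hy.mem hbS
  have heS : e ∈ S := by rw [← he]; exact hx.mem hdS
  have hcS : c ∈ S := by rw [← hcc]; exact hy.mem ha
  have hfS : f ∈ S := by rw [← hf]; exact hy.mem heS
  have hba : x b = a := by rw [← hb, hx.app]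
  have hdb : y d = b := by rw [← hd, hy.app]
  have hed : x e = d := by rw [← he, hx.app]
  have hca : y c = a := by rw [← hcc, hy.app]
  have hfe : y f = e := by rw [← hf, hy.app]
  have nab : a ≠ b := by rw [← hb]; exact (fpx a ha).symm
  have nac : a ≠ c := by rw [← hcc]; exact (fpy a ha).symm
  have nbd : b ≠ d := by rw [← hd]; exact (fpy b hbS).symm
  have nde : d ≠ e := by rw [← he]; exact (fpx d hdS).symm
  have nef : e ≠ f := by rw [← hf]; exact (fpy e heS).symm
  have nbc : b ≠ c := by intro h; exact hne a ha (hb.trans (h.trans hcc.symm))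
  have nad : a ≠ d := by intro h; exact hne b hbS (hba.trans (h.trans hd.symm))
  have ncd : c ≠ d := by intro h; apply nab; rw [← hca, h, hdb]
  have nae : a ≠ e := by intro h; apply nbd; rw [← hb, h, hed]
  have nbe : b ≠ e := by intro h; apply nad; rw [← hba, h, hed]
  have nec : e ≠ c := hl
  have naf : a ≠ f := by intro h; apply nec; rw [← hfe, ← h, hcc]
  have nbf : b ≠ f := by intro h; apply nde; rw [← hfe, ← h, hd]
  have ncf : c ≠ f := by intro h; apply nae; rw [← hfe, ← h, hca]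
  have ndf : d ≠ f := by intro h; apply nbe; rw [← hfe, ← h, hdb]
  -- peel x
  obtain ⟨_, _, x1, ex1, ix1, cx1, x1a, x1b, fx1⟩ := peel nab hx hb
  have x1d : x1 d = e := (fx1 d nad.symm nbd.symm).trans he
  obtain ⟨_, _, x2, ex2, ix2, cx2, x2d, x2e, fx2⟩ := peel nde ix1 x1d
  -- peel y
  obtain ⟨_, _, y1, ey1, iy1, cy1, y1c, y1a, fy1⟩ := peel nac.symm hy hca
  have y1b : y1 b = d := (fy1 b nbc nab.symm).trans hd
  obtain ⟨_, _, y2, ey2, iy2, cy2, y2b, y2d, fy2⟩ := peel nbd iy1 y1b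
  have y2e : y2 e = f := by rw [fy2 e nbe.symm nde.symm, fy1 e nec nae.symm, hf]
  obtain ⟨_, _, y3, ey3, iy3, cy3, y3e, y3f, fy3⟩ := peel nef iy2 y2e
  obtain ⟨S', hS'⟩ : ∃ S', S' = (((S.erase a).erase b).erase d).erase e := ⟨_, rfl⟩
  have memS' : ∀ p, p ∈ S' ↔ p ≠ e ∧ p ≠ d ∧ p ≠ b ∧ p ≠ a ∧ p ∈ S := by
    intro p; rw [hS']; simp only [Finset.mem_erase]
  rw [← hS'] at ix2
  have y3c : y3 c = c := by
    rw [fy3 c nec.symm ncf, fy2 c nbc.symm ncd, y1c]
  obtain ⟨iy4, cy4⟩ := comp (a := c) (b := f) (x := y3) ncf (by simp) (by simp) iy3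
  have iy' : Inv S' (swap c f * y3) := by
    refine ⟨iy4.1, fun p hp => iy4.2 p (fun h => hp ?_)⟩
    simp only [Finset.mem_insert, Finset.mem_erase] at h
    rw [memS']
    rcases h with h | h | h
    · subst h; exact ⟨nec.symm, ncd, nbc.symm, nac.symm, hcS⟩
    · subst h; exact ⟨nef.symm, ndf.symm, nbf.symm, naf.symm, hfS⟩
    · exact ⟨h.2.1, h.2.2.1, h.2.2.2.1, h.2.2.2.2.1, h.2.2.2.2.2.2⟩
  have hn6 : [a, b, c, d, e, f].Nodup := by
    simp only [List.nodup_cons, List.mem_cons, List.not_mem_nil, or_false, not_or, not_false_eq_true, List.nodup_nil, and_true]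
    exact ⟨⟨nab, nac, nad, nae, naf⟩, ⟨nbc, nbd, nbe, nbf⟩, ⟨ncd, nec.symm, ncf⟩, ⟨nde, ndf⟩, nef⟩
  have hcard : S'.card < S.card := by
    rw [hS']
    have h1 := card2 ha hbS nab
    have h2 := card2 (S := (S.erase a).erase b) (a := d) (b := e) (by simp only [Finset.mem_erase]; exact ⟨nbd.symm, nad.symm, hdS⟩)
      (by simp only [Finset.mem_erase]; exact ⟨nbe.symm, nae.symm, heS⟩) nde
    omega
  have hye : y = swap c a * swap b d * swap e f * swap c f * (swap c f * y3) := by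
    rw [mul_assoc _ (swap c f) (swap c f * y3), ← mul_assoc (swap c f) (swap c f) y3, swap_mul_self, one_mul]
    rw [ey1, ey2, ey3]; simp only [mul_assoc]
  have hxe : x = (swap a b * swap d e) * x2 := by rw [ex1, ex2, mul_assoc]
  by_cases h4 : (S'.card = 4 ∧ x2.support.card = 4) ∧ x2 ≠ swap c f * y3
  · obtain ⟨⟨h4, h5⟩, h6⟩ := h4
    obtain ⟨q, r, s, hq, hr, hs, hn, eqx, eqy⟩ := four h4 ix2 iy' h5 (by omega) h6 c ((memS' c).2 ⟨nec.symm, ncd, nbc.symm, nac.symm, hcS⟩)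
    have hrf : r = f := by
      have h7 : (swap c f * y3) c = f := by rw [Perm.mul_apply, y3c, swap_apply_left]
      rw [eqy, Perm.mul_apply] at h7
      simp only [List.nodup_cons, List.mem_cons, List.not_mem_nil, or_false, not_or, not_false_eq_true, List.nodup_nil, and_true] at hn
      rw [swap_apply_of_ne_of_ne hn.1.1 hn.1.2.2, swap_apply_left] at h7
      exact h7
    rw [hrf] at eqx eqy hn
    have hxx : x = swap a b * (swap d e * (swap c q * swap f s)) := by rw [hxe, eqx]; simp only [mul_assoc]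
    have hyy : y = swap c a * (swap b d * (swap e f * swap q s)) := by
      rw [hye, eqy, mul_assoc _ (swap c f) (swap c f * swap q s), ← mul_assoc (swap c f) (swap c f) (swap q s), swap_mul_self, one_mul]
      simp only [mul_assoc]
    rw [hxx, hyy]
    rw [memS'] at hq hs
    apply exc8
    · simp only [List.nodup_cons, List.mem_cons, List.not_mem_nil, or_false, not_or, not_false_eq_true, List.nodup_nil, and_true] at hn ⊢
      exact ⟨⟨nab, nac, nad, nae, naf, hq.2.2.2.1.symm, hs.2.2.2.1.symm⟩, ⟨nbc, nbd, nbe, nbf, hq.2.2.1.symm, hs.2.2.1.symm⟩,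
        ⟨ncd, nec.symm, ncf, hn.1.1, hn.1.2.2⟩, ⟨nde, ndf, hq.2.1.symm, hs.2.1.symm⟩, ⟨nef, hq.1.symm, hs.1.symm⟩, ⟨(Ne.symm hn.2.1.1), hn.2.2⟩, hn.2.1.2⟩
    · intro t ht
      simp only [List.mem_cons, List.not_mem_nil, or_false] at ht
      rcases ht with rfl | rfl | rfl | rfl | rfl | rfl | rfl | rfl
      · exact ha
      · exact hbS
      · exact hcS
      · exact hdS
      · exact heS
      · exact hfS
      · exact hq.2.2.2.2
      · exact hs.2.2.2.2
  · have hwd : Inv S' x2 := ix2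
    obtain ⟨iw, cw⟩ := comp (S := {d, e}) (x := swap d e) (a := a) (b := b) nab (by simp [nad, nae]) (by simp [nbd, nbe])
      (inv_swap (by simp) (by simp))
    have iwS : Inv S (swap a b * swap d e) := by
      refine ⟨iw.1, fun p hp => iw.2 p (fun h => hp ?_)⟩
      simp only [Finset.mem_insert, Finset.mem_singleton] at h
      rcases h with rfl | rfl | rfl | rfl <;> assumption
    have hS4 : ∀ σ : Perm α, (∀ p, p ∉ S' → σ p = p) → σ a = a ∧ σ b = b ∧ σ d = d ∧ σ e = e := by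
      intro σ hσ
      refine ⟨hσ a ?_, hσ b ?_, hσ d ?_, hσ e ?_⟩ <;> rw [memS'] <;> simp
    refine red (wz := swap a b * swap d e) hxe hye ix2 iy' iwS ?_ ?_ ?_ (ih S' _ _ hcard ix2 iy' (by omega) ?_) ?_ ?_
    · intro p hp
      rw [memS'] at hp
      rw [Perm.mul_apply, swap_apply_of_ne_of_ne hp.2.1 hp.1, swap_apply_of_ne_of_ne hp.2.2.2.1 hp.2.2.1]
    · intro p hp
      rw [memS'] at hp
      exact hp.2.2.2.2
    · rw [cw, Perm.card_support_swap nde]; omega
    · intro h5 h6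
      by_contra h7
      exact h4 ⟨⟨h5, h6⟩, h7⟩
    · intro σ _ ho
      rw [iwS.1, one_mul]; exact ho
    · intro σ hσ ho
      obtain ⟨sa, sb, sd, se⟩ := hS4 σ hσ
      rw [word_long hn6, mul_assoc]
      have o1 := lemA nbe nbc nec sb se ho
      apply lemA nad.symm ndf naf _ _ o1
      · rw [Perm.mul_apply, Perm.mul_apply, sd, swap_apply_of_ne_of_ne nbd.symm nde, swap_apply_of_ne_of_ne nde ncd.symm]
      · rw [Perm.mul_apply, Perm.mul_apply, sa, swap_apply_of_ne_of_ne nab nae, swap_apply_of_ne_of_ne nae nac]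

end CfsgLib.OddS
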