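import Mathlib
import Cfsg.Agent.LibOddS5H13

set_option autoImplicit false

open Equiv

namespace CfsgLib.OddS

variable {α : Type*} [Fintype α] [DecidableEq α]

theorem case44 {S : Finset α} {x y : Perm α} (ih : IH α S.card) (hx : Inv S x) (hy : Inv S y) (hc : x.support.card = y.support.card)
    (hex : S.card = 4 → x.support.card = 4 → x = y)
    (hne : ∀ a ∈ S, x a ≠ y a) (fpx : ∀ a ∈ S, x a ≠ a) (fpy : ∀ a ∈ S, y a ≠ a) {a : α} (ha : a ∈ S)
    (hl : ∀ a ∈ S, x (y (x a)) = y a) : Good S x y := by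
  -- one component
  have comp4 : ∀ a ∈ S, ∃ b c d, b ∈ S ∧ c ∈ S ∧ d ∈ S ∧ [a, b, c, d].Nodup ∧ x a = b ∧ x c = d ∧ y a = c ∧ y b = d := by
    intro a ha
    refine ⟨x a, y a, x (y a), hx.mem ha, hy.mem ha, hx.mem (hy.mem ha), ?_, rfl, rfl, rfl, ?_⟩
    · have n1 : y a ≠ x a := fun h => hne a ha h.symm
      have n3 : x (y a) ≠ a := by
        intro h
        have h5 := congrArg x h
        rw [hx.app] at h5
        exact n1 h5
      have n4 : x (y a) ≠ x a := fun h => (fpy a ha) (x.injective h)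
      simp only [List.nodup_cons, List.mem_cons, List.not_mem_nil, or_false, not_or, not_false_eq_true, List.nodup_nil, and_true]
      exact ⟨⟨(fpx a ha).symm, (fpy a ha).symm, n3.symm⟩, ⟨n1.symm, n4.symm⟩, (fpx _ (hy.mem ha)).symm⟩
    · have h := congrArg x (hl a ha)
      rwa [hx.app] at h
  obtain ⟨b, c, d, hbS, hcS, hdS, hn4, xa, xc, ya, yb⟩ := comp4 a ha
  have hn4' := hn4
  simp only [List.nodup_cons, List.mem_cons, List.not_mem_nil, or_false, not_or, not_false_eq_true, List.nodup_nil, and_true] at hn4'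
  obtain ⟨⟨nab, nac, nad⟩, ⟨nbc, nbd⟩, ncd⟩ : (a ≠ b ∧ a ≠ c ∧ a ≠ d) ∧ (b ≠ c ∧ b ≠ d) ∧ c ≠ d := hn4'
  have xb : x b = a := by rw [← xa, hx.app]
  have xd : x d = c := by rw [← xc, hx.app]
  have yc : y c = a := by rw [← ya, hy.app]
  have yd : y d = b := by rw [← yb, hy.app]
  -- another point
  obtain ⟨p, hpS, npa, npb, npc, npd⟩ : ∃ p ∈ S, p ≠ a ∧ p ≠ b ∧ p ≠ c ∧ p ≠ d := by
    by_contra hcon
    push Not at hcon
    have h1 : S = {a, b, c, d} := by
      apply Finset.Subset.antisymm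
      · intro t ht
        by_cases h1 : t = a
        · simp [h1]
        by_cases h2 : t = b
        · simp [h2]
        by_cases h3 : t = c
        · simp [h3]
        simp [hcon t ht h1 h2 h3]
      · intro t ht
        simp only [Finset.mem_insert, Finset.mem_singleton] at ht
        rcases ht with rfl | rfl | rfl | rfl <;> assumption
    have h2 : S.card = 4 := by
      rw [h1]
      have := List.toFinset_card_of_nodup hn4
      simpa using this
    have h3 : x.support = S := by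
      apply Finset.Subset.antisymm hx.sub
      intro t ht
      exact Perm.mem_support.2 (fpx t ht)
    have h4 := hex h2 (by rw [h3, h2])
    exact hne a ha (by rw [h4])
  obtain ⟨q, r, s, hqS, hrS, hsS, hm4, xp, xr, yp, yq⟩ := comp4 p hpS
  simp only [List.nodup_cons, List.mem_cons, List.not_mem_nil, or_false, not_or, not_false_eq_true, List.nodup_nil, and_true] at hm4
  obtain ⟨⟨npq, npr, nps⟩, ⟨nqr, nqs⟩, nrs⟩ : (p ≠ q ∧ p ≠ r ∧ p ≠ s) ∧ (q ≠ r ∧ q ≠ s) ∧ r ≠ s := hm4
  have xq : x q = p := by rw [← xp, hx.app]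
  have xs : x s = r := by rw [← xr, hx.app]
  have yr : y r = p := by rw [← yp, hy.app]
  have ys : y s = q := by rw [← yq, hy.app]
  have nqa : q ≠ a := by intro h; apply npb; rw [← xa, ← h, xq]
  have nqb : q ≠ b := by intro h; apply npa; rw [← xb, ← h, xq]
  have nqc : q ≠ c := by intro h; apply npd; rw [← xc, ← h, xq]
  have nqd : q ≠ d := by intro h; apply npc; rw [← xd, ← h, xq]
  have nra : r ≠ a := by intro h; apply npc; rw [← ya, ← h, yr]
  have nrb : r ≠ b := by intro h; apply npd; rw [← yb, ← h, yr]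
  have nrc : r ≠ c := by intro h; apply npa; rw [← yc, ← h, yr]
  have nrd : r ≠ d := by intro h; apply npb; rw [← yd, ← h, yr]
  have nsa : s ≠ a := by intro h; apply nrb; rw [← xa, ← h, xs]
  have nsb : s ≠ b := by intro h; apply nra; rw [← xb, ← h, xs]
  have nsc : s ≠ c := by intro h; apply nrd; rw [← xc, ← h, xs]
  have nsd : s ≠ d := by intro h; apply nrc; rw [← xd, ← h, xs]
  have hn8 : [a, b, c, d, p, q, r, s].Nodup := by
    simp only [List.nodup_cons, List.mem_cons, List.not_mem_nil, or_false, not_or, not_false_eq_true, List.nodup_nil, and_true]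
    exact ⟨⟨nab, nac, nad, npa.symm, nqa.symm, nra.symm, nsa.symm⟩, ⟨nbc, nbd, npb.symm, nqb.symm, nrb.symm, nsb.symm⟩,
      ⟨ncd, npc.symm, nqc.symm, nrc.symm, nsc.symm⟩, ⟨npd.symm, nqd.symm, nrd.symm, nsd.symm⟩, ⟨npq, npr, nps⟩, ⟨nqr, nqs⟩, nrs⟩
  -- peel x at (a,b),(p,q),(r,s)
  obtain ⟨_, _, x1, ex1, ix1, cx1, x1a, x1b, fx1⟩ := peel nab hx xa
  have x1p : x1 p = q := (fx1 p npa npb).trans xp
  obtain ⟨_, _, x2, ex2, ix2, cx2, x2p, x2q, fx2⟩ := peel npq ix1 x1p
  have x2r : x2 r = s := by rw [fx2 r npr.symm nqr.symm, fx1 r nra nrb, xr]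
  obtain ⟨_, _, x3, ex3, ix3, cx3, x3r, x3s, fx3⟩ := peel nrs ix2 x2r
  have x3c : x3 c = d := by rw [fx3 c nrc.symm nsc.symm, fx2 c npc.symm nqc.symm, fx1 c nac.symm nbc.symm, xc]
  -- peel y at (a,c),(b,d),(p,r)
  obtain ⟨_, _, y1, ey1, iy1, cy1, y1a, y1c, fy1⟩ := peel nac hy ya
  have y1b : y1 b = d := (fy1 b nab.symm nbc).trans yb
  obtain ⟨_, _, y2, ey2, iy2, cy2, y2b, y2d, fy2⟩ := peel nbd iy1 y1b
  have y2p : y2 p = r := by rw [fy2 p npb npd, fy1 p npa npc, yp]
  obtain ⟨_, _, y3, ey3, iy3, cy3, y3p, y3r, fy3⟩ := peel npr iy2 y2p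
  have y3q : y3 q = s := by rw [fy3 q npq.symm nqr, fy2 q nqb nqd, fy1 q nqa nqc, yq]
  have y3c : y3 c = c := by rw [fy3 c npc.symm nrc.symm, fy2 c nbc.symm ncd, y1c]
  have y3d : y3 d = d := by rw [fy3 d npd.symm nrd.symm, y2d]
  have x3q : x3 q = q := by rw [fx3 q nqr nqs, x2q]
  obtain ⟨ix4, cx4⟩ := comp (a := q) (b := s) (x := x3) nqs (by simp) (by simp) ix3
  obtain ⟨iy4, cy4⟩ := comp (a := c) (b := d) (x := y3) ncd (by simp) (by simp) iy3
  obtain ⟨S', hS'⟩ : ∃ S', S' = (((S.erase a).erase p).erase b).erase r := ⟨_, rfl⟩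
  have memS' : ∀ t, t ∈ S' ↔ t ≠ r ∧ t ≠ b ∧ t ≠ p ∧ t ≠ a ∧ t ∈ S := by
    intro t; rw [hS']; simp only [Finset.mem_erase]
  have ix' : Inv S' (swap q s * x3) := by
    refine ⟨ix4.1, fun t ht => ix4.2 t (fun h => ht ?_)⟩
    simp only [Finset.mem_insert, Finset.mem_erase] at h
    rw [memS']
    rcases h with h | h | h
    · subst h; exact ⟨nqr, nqb, npq.symm, nqa, hqS⟩
    · subst h; exact ⟨nrs.symm, nsb, nps.symm, nsa, hsS⟩
    · exact ⟨h.2.1, h.2.2.2.2.1, h.2.2.2.1, h.2.2.2.2.2.1, h.2.2.2.2.2.2⟩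
  have iy' : Inv S' (swap c d * y3) := by
    refine ⟨iy4.1, fun t ht => iy4.2 t (fun h => ht ?_)⟩
    simp only [Finset.mem_insert, Finset.mem_erase] at h
    rw [memS']
    rcases h with h | h | h
    · subst h; exact ⟨nrc.symm, nbc.symm, npc.symm, nac.symm, hcS⟩
    · subst h; exact ⟨nrd.symm, nbd.symm, npd.symm, nad.symm, hdS⟩
    · exact ⟨h.1, h.2.2.2.1, h.2.1, h.2.2.2.2.2.1, h.2.2.2.2.2.2⟩
  have hcard : S'.card < S.card := by
    rw [hS']
    have h1 := card2 ha hpS npa.symm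
    have h2 := card2 (S := (S.erase a).erase p) (a := b) (b := r) (by simp only [Finset.mem_erase]; exact ⟨npb.symm, nab.symm, hbS⟩)
      (by simp only [Finset.mem_erase]; exact ⟨npr.symm, nra, hrS⟩) nrb.symm
    omega
  have hxe : x = swap a b * swap p q * swap r s * swap q s * (swap q s * x3) := by
    rw [mul_assoc _ (swap q s) (swap q s * x3), ← mul_assoc (swap q s) (swap q s) x3, swap_mul_self, one_mul]
    rw [ex1, ex2, ex3]; simp only [mul_assoc]
  have hye : y = swap a c * swap b d * swap p r * swap c d * (swap c d * y3) := by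
    rw [mul_assoc _ (swap c d) (swap c d * y3), ← mul_assoc (swap c d) (swap c d) y3, swap_mul_self, one_mul]
    rw [ey1, ey2, ey3]; simp only [mul_assoc]
  obtain ⟨iw, cw⟩ := comp (S := {b, r}) (x := swap b r) (a := a) (b := p) npa.symm (by simp [nab, nra.symm]) (by simp [npb, npr])
    (inv_swap (by simp) (by simp))
  have iwS : Inv S (swap a p * swap b r) := by
    refine ⟨iw.1, fun t ht => iw.2 t (fun h => ht ?_)⟩
    simp only [Finset.mem_insert, Finset.mem_singleton] at h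
    rcases h with rfl | rfl | rfl | rfl <;> assumption
  have hS4 : ∀ σ : Perm α, (∀ t, t ∉ S' → σ t = t) → σ a = a ∧ σ b = b ∧ σ p = p ∧ σ r = r := by
    intro σ hσ
    refine ⟨hσ a ?_, hσ b ?_, hσ p ?_, hσ r ?_⟩ <;> rw [memS'] <;> simp
  refine red (wz := swap a p * swap b r) hxe hye ix' iy' iwS ?_ ?_ ?_ (ih S' _ _ hcard ix' iy' (by omega) ?_) ?_ ?_
  · intro t ht
    rw [memS'] at ht
    rw [Perm.mul_apply, swap_apply_of_ne_of_ne ht.2.1 ht.1, swap_apply_of_ne_of_ne ht.2.2.2.1 ht.2.2.1]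
  · intro t ht
    rw [memS'] at ht
    exact ht.2.2.2.2
  · rw [cw, Perm.card_support_swap nrb.symm]; omega
  · intro h5 h6
    by_contra h7
    obtain ⟨q', r', s', _, _, _, hn, eqx, eqy⟩ := four h5 ix' iy' h6 (by omega) h7 c ((memS' c).2 ⟨nrc.symm, nbc.symm, npc.symm, nac.symm, hcS⟩)
    simp only [List.nodup_cons, List.mem_cons, List.not_mem_nil, or_false, not_or, not_false_eq_true, List.nodup_nil, and_true] at hn
    have h8 : (swap q s * x3) c = d := by rw [Perm.mul_apply, x3c, swap_apply_of_ne_of_ne nqd.symm nsd.symm]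
    have h9 : (swap c d * y3) c = d := by rw [Perm.mul_apply, y3c, swap_apply_left]
    rw [eqx, Perm.mul_apply, swap_apply_of_ne_of_ne hn.1.2.1 hn.1.2.2, swap_apply_left] at h8
    rw [eqy, Perm.mul_apply, swap_apply_of_ne_of_ne hn.1.1 hn.1.2.2, swap_apply_left] at h9
    exact hn.2.1.1 (h8.trans h9.symm)
  · intro σ hσ ho
    obtain ⟨sa, sb, sp, sr⟩ := hS4 σ hσ
    rw [word_44x hn8, mul_assoc]
    have o1 := lemA npb.symm nsb.symm nps sb sp ho
    apply lemA nra.symm nqa.symm nqr.symm _ _ o1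
    · rw [Perm.mul_apply, Perm.mul_apply, sa, swap_apply_of_ne_of_ne nab npa.symm, swap_apply_of_ne_of_ne npa.symm nsa.symm]
    · rw [Perm.mul_apply, Perm.mul_apply, sr, swap_apply_of_ne_of_ne nrb npr.symm, swap_apply_of_ne_of_ne npr.symm nrs]
  · intro σ hσ ho
    obtain ⟨sa, sb, sp, sr⟩ := hS4 σ hσ
    rw [word_44y hn8, mul_assoc]
    have o1 := lemA npb npc nbc sp sb ho
    apply lemA nra nrd nad _ _ o1
    · rw [Perm.mul_apply, Perm.mul_apply, sr, swap_apply_of_ne_of_ne npr.symm nrb, swap_apply_of_ne_of_ne nrb nrc]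
    · rw [Perm.mul_apply, Perm.mul_apply, sa, swap_apply_of_ne_of_ne npa.symm nab, swap_apply_of_ne_of_ne nab nac]

theorem main_aux (n : ℕ) : ∀ (S : Finset α) (x y : Perm α), S.card = n → Inv S x → Inv S y → x.support.card = y.support.card →
    (S.card = 4 → x.support.card = 4 → x = y) → Good S x y := by
  induction n using Nat.strong_induction_on with
  | _ n ih0 =>
  intro S x y hn hx hy hc hex
  have ih : IH α S.card := fun S' x' y' h1 h2 h3 h4 h5 => ih0 S'.card (by omega) S' x' y' rfl h2 h3 h4 h5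
  by_cases hxy : x = y
  · subst hxy; exact good_self hx
  -- (i)
  by_cases h1 : ∃ s ∈ S, x s = s ∧ y s = s
  · obtain ⟨s, hs, h1, h2⟩ := h1
    have iS : ∀ u : Perm α, Inv S u → u s = s → Inv (S.erase s) u := by
      intro u hu hus
      refine ⟨hu.1, ?_⟩
      intro p hp
      by_cases h : p = s
      · rw [h, hus]
      · exact hu.2 p (fun h3 => hp (Finset.mem_erase.2 ⟨h, h3⟩))
    by_cases h4 : (S.erase s).card = 4 ∧ x.support.card = 4
    · obtain ⟨p, hp⟩ : (S.erase s).Nonempty := by rw [← Finset.card_pos]; omega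
      obtain ⟨q, r, s', hq, hr, hs', hnd, eqx, eqy⟩ := four h4.1 (iS x hx h1) (iS y hy h2) h4.2 (by omega) hxy p hp
      rw [eqx, eqy]
      simp only [Finset.mem_erase] at hp hq hr hs'
      apply exc5 (u := s)
      · simp only [List.nodup_cons, List.mem_cons, List.not_mem_nil, or_false, not_or, not_false_eq_true, List.nodup_nil, and_true] at hnd ⊢
        exact ⟨⟨hnd.1.1, hnd.1.2.1, hnd.1.2.2, hp.1⟩, ⟨hnd.2.1.1, hnd.2.1.2, hq.1⟩, ⟨hnd.2.2, hr.1⟩, hs'.1⟩
      · intro t ht
        simp only [List.mem_cons, List.not_mem_nil, or_false] at ht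
        rcases ht with rfl | rfl | rfl | rfl | rfl
        · exact hp.2
        · exact hq.2
        · exact hr.2
        · exact hs'.2
        · exact hs
    · exact (ih (S.erase s) x y (Finset.card_erase_lt_of_mem hs) (iS x hx h1) (iS y hy h2) hc (fun h5 h6 => absurd ⟨h5, h6⟩ h4)).mono (Finset.erase_subset _ _)
  push Not at h1
  -- (ii)
  by_cases h2 : ∃ a ∈ S, x a = y a
  · obtain ⟨a, ha, h2⟩ := h2
    obtain ⟨b, hb⟩ : ∃ b, x a = b := ⟨_, rfl⟩
    have hyb : y a = b := by rw [← h2, hb]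
    have nab : a ≠ b := by
      intro h
      exact h1 a ha (hb.trans h.symm) (hyb.trans h.symm)
    obtain ⟨_, hbS, x', ex, ix, cx, ax, bx, fx⟩ := peel nab hx hb
    obtain ⟨_, _, y', ey, iy, cy, ay, bby, fy⟩ := peel nab hy hyb
    have hne : x' ≠ y' := fun h => hxy (by rw [ex, ey, h])
    by_cases h4 : ((S.erase a).erase b).card = 4 ∧ x'.support.card = 4
    · obtain ⟨p, hp⟩ : ((S.erase a).erase b).Nonempty := by rw [← Finset.card_pos]; omega
      obtain ⟨q, r, s', hq, hr, hs', hnd, eqx, eqy⟩ := four h4.1 ix iy h4.2 (by omega) hne p hp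
      rw [ex, ey, eqx, eqy]
      simp only [Finset.mem_erase] at hp hq hr hs'
      apply exc6
      · simp only [List.nodup_cons, List.mem_cons, List.not_mem_nil, or_false, not_or, not_false_eq_true, List.nodup_nil, and_true] at hnd ⊢
        exact ⟨⟨nab, hp.2.1.symm, hq.2.1.symm, hr.2.1.symm, hs'.2.1.symm⟩, ⟨hp.1.symm, hq.1.symm, hr.1.symm, hs'.1.symm⟩, hnd⟩
      · intro t ht
        simp only [List.mem_cons, List.not_mem_nil, or_false] at ht
        rcases ht with rfl | rfl | rfl | rfl | rfl | rfl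
        · exact ha
        · exact hbS
        · exact hp.2.2
        · exact hq.2.2
        · exact hr.2.2
        · exact hs'.2.2
    · refine red2 ha hbS nab ex ey ix iy cx (ih _ x' y' (card2 ha hbS nab) ix iy (by omega) (fun h5 h6 => absurd ⟨h5, h6⟩ h4)) ?_ ?_
      · intro σ _ _ ho; rw [swap_mul_self, one_mul]; exact ho
      · intro σ _ _ ho; rw [swap_mul_self, one_mul]; exact ho
  push Not at h2
  have h2' : ∀ a ∈ S, y a ≠ x a := fun a ha h => h2 a ha h.symm
  -- (iii), (iv)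
  by_cases h3 : ∃ a ∈ S, y a = a
  · obtain ⟨a, ha, hya⟩ := h3
    by_cases h4 : y (x a) = x a
    · obtain ⟨c, hcS, hxc⟩ : ∃ c ∈ S, x c = c := by
        by_contra hcon
        push Not at hcon
        have h5 : x.support = S := by
          apply Finset.Subset.antisymm hx.sub
          intro t ht
          exact Perm.mem_support.2 (hcon t ht)
        have h6 := hy.lt ha hya
        rw [← hc, h5] at h6
        omega
      by_cases h5 : x (y c) = y c
      · exact case4 ih hx hy hc h2 ha hya h4 hcS hxc h5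
      · exact (case3 ih hy hx hc.symm h2' hcS hxc h5).symm' hc.symm
    · exact case3 ih hx hy hc h2 ha hya h4
  by_cases h4 : ∃ a ∈ S, x a = a
  · obtain ⟨a, ha, hxa⟩ := h4
    by_cases h5 : x (y a) = y a
    · exfalso
      push Not at h3
      have h5 : y.support = S := by
        apply Finset.Subset.antisymm hy.sub
        intro t ht
        exact Perm.mem_support.2 (h3 t ht)
      have h6 := hx.lt ha hxa
      rw [hc, h5] at h6
      omega
    · exact (case3 ih hy hx hc.symm h2' ha hxa h5).symm' hc.symm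
  push Not at h3 h4
  -- (v)
  by_cases h5 : ∃ a ∈ S, x (y (x a)) ≠ y a
  · obtain ⟨a, ha, hl⟩ := h5
    exact case5 ih hx hy hc h2 h4 h3 ha hl
  push Not at h5
  obtain ⟨a, ha⟩ : ∃ a, a ∈ S := by
    by_contra hcon
    push Not at hcon
    apply hxy
    ext p
    rw [hx.2 p (hcon p), hy.2 p (hcon p)]
  exact case44 ih hx hy hc hex h2 h4 h3 ha h5

end CfsgLib.OddS
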