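import Cfsg.Agent.LibH22OOrd3
import Cfsg.Agent.LibH22Omega4

set_option autoImplicit false
set_option linter.unusedSectionVars false

/-! Orthogonal geometry for the minimal degrees of orthogonal groups (helper26). -/

namespace CfsgLib.Ow

open Cfsg.Agent.H22 Module

section
variable {F V : Type*} [Field F] [AddCommGroup V] [Module F V] {Q : QuadraticForm F V}

/-- orthogonal transformations supported on a plane -/
def DG (Q : QuadraticForm F V) (e f : V) : Subgroup (OGrp Q) where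
  carrier := {g | ∀ v, QuadraticMap.polar Q e v = 0 → QuadraticMap.polar Q f v = 0 → g.1 v = v}
  one_mem' := fun v _ _ => rfl
  mul_mem' := by
    intro a b ha hb v h1 h2
    rw [og_mul_apply, hb v h1 h2, ha v h1 h2]
  inv_mem' := by
    intro a ha v h1 h2
    have := congrArg (a⁻¹ : OGrp Q).1 (ha v h1 h2)
    rw [og_inv_apply'] at this
    exact this.symm

variable [FiniteDimensional F V]

theorem exists_EG' {e f e' f' u : V} (hs : HS Q e f e' f' u) (hQ : (QuadraticMap.polarBilin Q).Nondegenerate)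
    (hF : (∃ a : F, a ≠ 0 ∧ a ≠ 1) ∨ finrank F V ≠ 4) (g : OGrp Q) :
    ∃ h ∈ EG Q, ∀ v, QuadraticMap.polar Q e v = 0 → QuadraticMap.polar Q f v = 0 → h.1 v = g.1 v := by
  have hsup : EG Q ⊔ DG Q e f = ⊤ := by
    rw [eq_top_iff, ← closure_oRefl hQ hF, Subgroup.closure_le]
    rintro _ ⟨v, hv, rfl⟩
    rw [SetLike.mem_coe]
    have hc : Q (e + Q v • f) ≠ 0 := by rw [hs.h1.q1]; exact hv
    have h1 := hs.refl_mod hQ (e + Q v • f) v hc hv (hs.h1.q1 _)
    have h2 : oRefl Q (e + Q v • f) hc ∈ DG Q e f := fun z hz hz' => refl_plane_perp _ hc z hz hz'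
    have h4 : oRefl Q v hv = (oRefl Q v hv * oRefl Q _ hc) * oRefl Q _ hc := by
      rw [mul_assoc, oRefl_mul_self, mul_one]
    rw [h4]
    exact mul_mem (Subgroup.mem_sup_left h1) (Subgroup.mem_sup_right h2)
  have hg : g ∈ EG Q ⊔ DG Q e f := by rw [hsup]; trivial
  have hg2 : g ∈ ((EG Q ⊔ DG Q e f : Subgroup (OGrp Q)) : Set (OGrp Q)) := hg
  rw [Subgroup.normal_mul] at hg2
  obtain ⟨h, hh, t, ht, rfl⟩ := Set.mem_mul.1 hg2
  exact ⟨h, hh, fun v h1 h2 => by rw [og_mul_apply, ht v h1 h2]⟩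

/-- two orthogonal hyperbolic pairs -/
structure OP (Q : QuadraticForm F V) (x x' z z' : V) : Prop where
  h1 : HP Q x x'
  h2 : HP Q z z'
  xz : QuadraticMap.polar Q x z = 0
  xz' : QuadraticMap.polar Q x z' = 0
  x'z : QuadraticMap.polar Q x' z = 0
  x'z' : QuadraticMap.polar Q x' z' = 0

omit [FiniteDimensional F V] in
theorem OP.symm {x x' z z' : V} (h : OP Q x x' z z') : OP Q z z' x x' where
  h1 := h.h2
  h2 := h.h1
  xz := by rw [QuadraticMap.polar_comm]; exact h.xz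
  xz' := by rw [QuadraticMap.polar_comm]; exact h.x'z
  x'z := by rw [QuadraticMap.polar_comm]; exact h.xz'
  x'z' := by rw [QuadraticMap.polar_comm]; exact h.x'z'

omit [FiniteDimensional F V] in
theorem OP.qfam {x x' z z' : V} (h : OP Q x x' z z') : QFam Q 2 ![(x, x'), (z, z')] := by
  refine ⟨?_, ?_⟩
  · intro i
    fin_cases i
    · exact ⟨h.h1.1, h.h1.2.1⟩
    · exact ⟨h.h2.1, h.h2.2.1⟩
  · have hs := h.symm
    intro i j
    fin_cases i <;> fin_cases j
    · exact ⟨h.h1.ee, h.h1.ff, by simpa using h.h1.2.2⟩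
    · exact ⟨h.xz, h.x'z', by simpa using h.xz'⟩
    · exact ⟨hs.xz, hs.x'z', by simpa using hs.xz'⟩
    · exact ⟨h.h2.ee, h.h2.ff, by simpa using h.h2.2.2⟩

omit [FiniteDimensional F V] in
theorem HP.qfam {x x' : V} (h : HP Q x x') : QFam Q 1 ![(x, x')] := by
  refine ⟨?_, ?_⟩
  · intro i
    fin_cases i
    exact ⟨h.1, h.2.1⟩
  · intro i j
    fin_cases i; fin_cases j
    exact ⟨h.ee, h.ff, by simpa using h.2.2⟩

/-- enough room -/
structure Big (Q : QuadraticForm F V) : Prop where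
  hQ : (QuadraticMap.polarBilin Q).Nondegenerate
  hF : ∃ a : F, a ≠ 0 ∧ a ^ 2 ≠ 1
  fr : ∃ x x' z z' t t' u : V, OP Q x x' z z' ∧ OP Q t t' x x' ∧ OP Q t t' z z' ∧ HS Q t t' x x' u ∧ HS Q x x' z z' u

omit [FiniteDimensional F V] in
theorem Big.hF' (B : Big Q) : (∃ a : F, a ≠ 0 ∧ a ≠ 1) ∨ finrank F V ≠ 4 := by
  obtain ⟨a, ha, ha2⟩ := B.hF
  exact Or.inl ⟨a, ha, fun h => ha2 (by rw [h, one_pow])⟩

omit [FiniteDimensional F V] in
theorem OP.map {x x' z z' : V} (h : OP Q x x' z z') (g : OGrp Q) : OP Q (g.1 x) (g.1 x') (g.1 z) (g.1 z') where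
  h1 := h.h1.map g
  h2 := h.h2.map g
  xz := by rw [og_polar]; exact h.xz
  xz' := by rw [og_polar]; exact h.xz'
  x'z := by rw [og_polar]; exact h.x'z
  x'z' := by rw [og_polar]; exact h.x'z'

theorem Big.conj_OP (B : Big Q) {x x' z z' y y' w w' : V} (h : OP Q x x' z z') (h' : OP Q y y' w w') :
    ∃ g : EG Q, g.1.1 x = y ∧ g.1.1 x' = y' ∧ g.1.1 z = w ∧ g.1.1 z' = w' := by
  obtain ⟨x0, x0', z0, z0', t, t', u, hop, htx, htz, hs, -⟩ := B.fr
  have key : ∀ {y y' w w' : V}, OP Q y y' w w' → ∃ g : EG Q, g.1.1 x0 = y ∧ g.1.1 x0' = y' ∧ g.1.1 z0 = w ∧ g.1.1 z0' = w' := by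
    intro y y' w w' h'
    obtain ⟨g, hg⟩ := witt_fam B.hQ (QFam.vec _) (QFam.vec _) hop.qfam.indep h'.qfam.indep
      (fun i => by rw [hop.qfam.Q_vec, h'.qfam.Q_vec]) (fun i j => QFam.polar_vec hop.qfam h'.qfam i j)
    obtain ⟨k, hk, hk2⟩ := exists_EG' hs B.hQ B.hF' g
    refine ⟨⟨k, hk⟩, ?_, ?_, ?_, ?_⟩
    · change k.1 x0 = y
      rw [hk2 _ htx.xz htx.x'z]
      exact hg (Sum.inl 0)
    · change k.1 x0' = y'
      rw [hk2 _ htx.xz' htx.x'z']
      exact hg (Sum.inr 0)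
    · change k.1 z0 = w
      rw [hk2 _ htz.xz htz.x'z]
      exact hg (Sum.inl 1)
    · change k.1 z0' = w'
      rw [hk2 _ htz.xz' htz.x'z']
      exact hg (Sum.inr 1)
  obtain ⟨g1, h1, h2, h3, h4⟩ := key h
  obtain ⟨g2, k1, k2, k3, k4⟩ := key h'
  have inv : ∀ a b, g1.1.1 a = b → (g1⁻¹ : EG Q).1.1 b = a := by
    intro a b hab
    rw [← hab]
    exact og_inv_apply' g1.1 a
  refine ⟨g2 * g1⁻¹, ?_, ?_, ?_, ?_⟩
  · change g2.1.1 ((g1⁻¹ : EG Q).1.1 x) = y
    rw [inv _ _ h1, k1]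
  · change g2.1.1 ((g1⁻¹ : EG Q).1.1 x') = y'
    rw [inv _ _ h2, k2]
  · change g2.1.1 ((g1⁻¹ : EG Q).1.1 z) = w
    rw [inv _ _ h3, k3]
  · change g2.1.1 ((g1⁻¹ : EG Q).1.1 z') = w'
    rw [inv _ _ h4, k4]

omit [FiniteDimensional F V] in
theorem indep3 {x x' r : V} (h : HP Q x x') (hr : r ∈ perp2 Q x x') (hr0 : r ≠ 0) : LinearIndependent F ![x, x', r] := by
  rw [Fintype.linearIndependent_iff]
  intro g hg
  simp only [Fin.sum_univ_three, Matrix.cons_val_zero, Matrix.cons_val_one, Matrix.cons_val_two, Matrix.tail_cons,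
    Matrix.head_cons] at hg
  have hxr : QuadraticMap.polar Q x r = 0 := hr.1
  have hxr' : QuadraticMap.polar Q x' r = 0 := hr.2
  have h1 : g 1 = 0 := by
    have := congrArg (QuadraticMap.polar Q x) hg
    simpa [QuadraticMap.polar_add_right, QuadraticMap.polar_smul_right, h.ee, h.2.2, hxr] using this
  have h0 : g 0 = 0 := by
    have := congrArg (QuadraticMap.polar Q x') hg
    simpa [QuadraticMap.polar_add_right, QuadraticMap.polar_smul_right, h.fe, h.ff, hxr'] using this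
  rw [h0, h1, zero_smul, zero_smul, zero_add, zero_add] at hg
  have h2 : g 2 = 0 := (smul_eq_zero.1 hg).resolve_right hr0
  intro i
  fin_cases i
  · exact h0
  · exact h1
  · exact h2

theorem Big.conj_r (B : Big Q) {x x' r y y' s : V} (h : HP Q x x') (hr : r ∈ perp2 Q x x') (hr0 : r ≠ 0)
    (h' : HP Q y y') (hs : s ∈ perp2 Q y y') (hs0 : s ≠ 0) (hrs : Q r = Q s) :
    ∃ g : EG Q, g.1.1 x = y ∧ g.1.1 x' = y' ∧ g.1.1 r = s := by
  obtain ⟨x0, x0', z0, z0', t, t', u, hop, htx, htz, hhs, -⟩ := B.fr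
  set c := Q r with hc
  have hm : z0 + c • z0' ∈ perp2 Q x0 x0' := by
    constructor
    · simp [QuadraticMap.polar_add_right, QuadraticMap.polar_smul_right, hop.xz, hop.xz']
    · simp [QuadraticMap.polar_add_right, QuadraticMap.polar_smul_right, hop.x'z, hop.x'z']
  have hm0 : z0 + c • z0' ≠ 0 := by
    intro h0
    have := congrArg (QuadraticMap.polar Q z0') h0
    rw [QuadraticMap.polar_add_right, QuadraticMap.polar_smul_right, hop.h2.fe, hop.h2.ff] at this
    simp at this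
  have hmQ : Q (z0 + c • z0') = c := hop.h2.q1 c
  have key : ∀ {y y' s : V}, HP Q y y' → s ∈ perp2 Q y y' → s ≠ 0 → Q s = c →
      ∃ g : EG Q, g.1.1 x0 = y ∧ g.1.1 x0' = y' ∧ g.1.1 (z0 + c • z0') = s := by
    intro y y' s hp hs hs0 hsc
    obtain ⟨g, hg⟩ := witt_fam B.hQ ![x0, x0', z0 + c • z0'] ![y, y', s] (indep3 hop.h1 hm hm0) (indep3 hp hs hs0)
      (by
        intro i
        fin_cases i
        · exact hop.h1.1.trans hp.1.symm
        · exact hop.h1.2.1.trans hp.2.1.symm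
        · exact hmQ.trans hsc.symm)
      (by
        have e1 : QuadraticMap.polar Q x0 (z0 + c • z0') = QuadraticMap.polar Q y s := hm.1.trans hs.1.symm
        have e2 : QuadraticMap.polar Q x0' (z0 + c • z0') = QuadraticMap.polar Q y' s := hm.2.trans hs.2.symm
        intro i j
        fin_cases i <;> fin_cases j
        · exact hop.h1.ee.trans hp.ee.symm
        · exact hop.h1.2.2.trans hp.2.2.symm
        · exact e1
        · exact hop.h1.fe.trans hp.fe.symm
        · exact hop.h1.ff.trans hp.ff.symm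
        · exact e2
        · exact (QuadraticMap.polar_comm _ _ _).trans (e1.trans (QuadraticMap.polar_comm _ _ _))
        · exact (QuadraticMap.polar_comm _ _ _).trans (e2.trans (QuadraticMap.polar_comm _ _ _))
        · change QuadraticMap.polar Q (z0 + c • z0') (z0 + c • z0') = QuadraticMap.polar Q s s
          rw [pself, pself, hmQ, hsc])
    obtain ⟨k, hk, hk2⟩ := exists_EG' hhs B.hQ B.hF' g
    refine ⟨⟨k, hk⟩, ?_, ?_, ?_⟩
    · change k.1 x0 = y
      rw [hk2 _ htx.xz htx.x'z]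
      exact hg 0
    · change k.1 x0' = y'
      rw [hk2 _ htx.xz' htx.x'z']
      exact hg 1
    · change k.1 (z0 + c • z0') = s
      rw [hk2]
      · exact hg 2
      · simp [QuadraticMap.polar_add_right, QuadraticMap.polar_smul_right, htz.xz, htz.xz']
      · simp [QuadraticMap.polar_add_right, QuadraticMap.polar_smul_right, htz.x'z, htz.x'z']
  obtain ⟨g1, h1, h2, h3⟩ := key h hr hr0 rfl
  obtain ⟨g2, k1, k2, k3⟩ := key h' hs hs0 hrs.symm
  have inv : ∀ a b, g1.1.1 a = b → (g1⁻¹ : EG Q).1.1 b = a := by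
    intro a b hab
    rw [← hab]
    exact og_inv_apply' g1.1 a
  refine ⟨g2 * g1⁻¹, ?_, ?_, ?_⟩
  · change g2.1.1 ((g1⁻¹ : EG Q).1.1 x) = y
    rw [inv _ _ h1, k1]
  · change g2.1.1 ((g1⁻¹ : EG Q).1.1 x') = y'
    rw [inv _ _ h2, k2]
  · change g2.1.1 ((g1⁻¹ : EG Q).1.1 r) = s
    rw [inv _ _ h3, k3]

theorem Big.exists_partner (B : Big Q) (Z : Submodule F V) (w : V)
    (hw : w ∉ Z) (hwZ : ∀ z ∈ Z, QuadraticMap.polar Q z w = 0) (hQw : Q w = 0) :
    ∃ w', (∀ z ∈ Z, QuadraticMap.polar Q z w' = 0) ∧ HP Q w w' := by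
  obtain ⟨w', h1, h2, h3⟩ := Cfsg.Agent.H22.exists_partner B.hQ Z w hw hwZ hQw
  exact ⟨w', h1, hQw, h3, h2⟩

theorem Big.exists_HP (B : Big Q) {x : V} (hx : x ≠ 0) (hQx : Q x = 0) : ∃ x', HP Q x x' := by
  obtain ⟨x', -, h⟩ := B.exists_partner ⊥ x (by rwa [Submodule.mem_bot]) (fun z hz => by
    rw [Submodule.mem_bot] at hz
    rw [hz, QuadraticMap.polar_zero_left]) hQx
  exact ⟨x', h⟩

omit [FiniteDimensional F V] in
theorem not_mem_span_pair {x x' z : V} (h : HP Q x x') (hz0 : z ≠ 0) (h1 : QuadraticMap.polar Q x z = 0)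
    (h2 : QuadraticMap.polar Q x' z = 0) : z ∉ Submodule.span F {x, x'} := by
  intro hz
  obtain ⟨a, b, rfl⟩ := Submodule.mem_span_pair.1 hz
  have hb : b = 0 := by
    simpa [QuadraticMap.polar_add_right, QuadraticMap.polar_smul_right, h.ee, h.2.2] using h1
  have ha : a = 0 := by
    simpa [QuadraticMap.polar_add_right, QuadraticMap.polar_smul_right, h.fe, h.ff] using h2
  apply hz0
  rw [ha, hb, zero_smul, zero_smul, add_zero]

theorem Big.exists_OP (B : Big Q) {x z : V} (hx : x ∉ Submodule.span F {z}) (hz : z ≠ 0) (hQx : Q x = 0) (hQz : Q z = 0)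
    (hxz : QuadraticMap.polar Q x z = 0) : ∃ x' z', OP Q x x' z z' := by
  obtain ⟨x', h1, h2⟩ := B.exists_partner (Submodule.span F {z}) x hx (fun y hy => by
    obtain ⟨c, rfl⟩ := Submodule.mem_span_singleton.1 hy
    rw [QuadraticMap.polar_smul_left, QuadraticMap.polar_comm, hxz, smul_zero]) hQx
  have hx'z : QuadraticMap.polar Q x' z = 0 := by
    rw [QuadraticMap.polar_comm]; exact h1 z (Submodule.mem_span_singleton_self z)
  obtain ⟨z', h3, h4⟩ := B.exists_partner (Submodule.span F {x, x'}) z (not_mem_span_pair h2 hz hxz hx'z) (fun y hy => by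
    obtain ⟨a, b, rfl⟩ := Submodule.mem_span_pair.1 hy
    rw [QuadraticMap.polar_add_left, QuadraticMap.polar_smul_left, QuadraticMap.polar_smul_left, hxz, hx'z, smul_zero,
      smul_zero, add_zero]) hQz
  exact ⟨x', z', h2, h4, hxz, h3 x (Submodule.subset_span (by simp)), hx'z, h3 x' (Submodule.subset_span (by simp))⟩

/-- torus elements -/
theorem Big.torus (B : Big Q) {z z' : V} (h : HP Q z z') {a : F} (ha : a ≠ 0) :
    ∃ T : EG Q, T.1.1 z = a ^ 2 • z ∧ T.1.1 z' = (a⁻¹) ^ 2 • z' ∧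
      ∀ v, QuadraticMap.polar Q z v = 0 → QuadraticMap.polar Q z' v = 0 → T.1.1 v = v := by
  obtain ⟨x0, x0', z0, z0', t, t', u, hop, htx, htz, hhs, hs2⟩ := B.fr
  have hv1 : Q (z + z') = 1 := by
    have := h.q1 1
    rwa [one_smul] at this
  have hv2 : Q (a⁻¹ • z + a • z') = 1 := by rw [h.q, inv_mul_cancel₀ ha]
  have hn1 : Q (z + z') ≠ 0 := by rw [hv1]; exact one_ne_zero
  have hn2 : Q (a⁻¹ • z + a • z') ≠ 0 := by rw [hv2]; exact one_ne_zero
  have hmem := hhs.refl_mod B.hQ _ _ hn2 hn1 (hv2.trans hv1.symm)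
  refine ⟨⟨_, hmem⟩, ?_, ?_, ?_⟩
  · change (oRefl Q (z + z') hn1 * oRefl Q (a⁻¹ • z + a • z') hn2).1 z = a ^ 2 • z
    rw [og_mul_apply, oRefl_apply, oRefl_apply, hv1, hv2]
    simp only [QuadraticMap.polar_add_left, QuadraticMap.polar_smul_left, QuadraticMap.polar_sub_right,
      QuadraticMap.polar_add_right, QuadraticMap.polar_smul_right, h.ee, h.fe, h.ff, h.2.2, smul_eq_mul, inv_one, one_mul,
      mul_zero, mul_one, zero_add, add_zero, smul_add, smul_smul]
    have : a * a⁻¹ = 1 := mul_inv_cancel₀ ha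
    rw [this]
    match_scalars <;> ring
  · change (oRefl Q (z + z') hn1 * oRefl Q (a⁻¹ • z + a • z') hn2).1 z' = (a⁻¹) ^ 2 • z'
    rw [og_mul_apply, oRefl_apply, oRefl_apply, hv1, hv2]
    simp only [QuadraticMap.polar_add_left, QuadraticMap.polar_smul_left, QuadraticMap.polar_sub_right,
      QuadraticMap.polar_add_right, QuadraticMap.polar_smul_right, h.ee, h.fe, h.ff, h.2.2, smul_eq_mul, inv_one, one_mul,
      mul_zero, mul_one, zero_add, add_zero, smul_add, smul_smul]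
    have : a⁻¹ * a = 1 := inv_mul_cancel₀ ha
    rw [this]
    match_scalars <;> ring
  · intro v h1 h2
    change (oRefl Q (z + z') hn1 * oRefl Q (a⁻¹ • z + a • z') hn2).1 v = v
    rw [og_mul_apply, oRefl_apply, oRefl_apply]
    simp [QuadraticMap.polar_add_left, QuadraticMap.polar_smul_left, h1, h2]

end

end CfsgLib.Ow
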