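import Cfsg.Agent.LibOw10

set_option autoImplicit false
set_option linter.unusedSectionVars false

/-! Constancy of the traces (helper26). -/

namespace CfsgLib.Ow

open Cfsg.Agent.H22 Module CfsgLib.Wt CfsgLib.WtQ CfsgLib.WtSp CfsgLib.SLw

section nums
variable {F V : Type*} [Field F] [Finite F] [AddCommGroup V] [Module F V] [FiniteDimensional F V]

/-- the basic numbers -/
structure Num (Q : QuadraticForm F V) (A n : ℕ) : Prop where
  hA : Nat.card V = Nat.card F ^ 6 * A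
  hn : nn Q ⊤ 0 = Nat.card F ^ 2 * n + (Nat.card F ^ 2 - 1) * (Nat.card F ^ 3 * A)

variable {Q : QuadraticForm F V}

theorem card_W0 {x x' : V} (h : HP Q x x') : Nat.card V = Nat.card F ^ 2 * Nat.card (perp2 Q x x') := by
  have := card_perp h (U := ⊤) trivial trivial
  rw [top_inf_eq] at this
  rw [← this]
  exact (Nat.card_congr Submodule.topEquiv.toEquiv).symm

theorem two_le_q (F : Type*) [Field F] [Finite F] : 2 ≤ Nat.card F := Finite.one_lt_card

theorem qsq {q : ℕ} (hq : 2 ≤ q) (A : ℕ) : q * ((q - 1) * A) + (q - 1) * A = (q ^ 2 - 1) * A := by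
  obtain ⟨t, rfl⟩ := Nat.exists_eq_add_of_le hq
  have h1 : 2 + t - 1 = 1 + t := by omega
  have h2 : (2 + t) ^ 2 - 1 = (1 + t) * (3 + t) := by
    have : (2 + t) ^ 2 = (1 + t) * (3 + t) + 1 := by ring
    omega
  rw [h1, h2]
  ring

theorem Num.mk' (B : Big Q) : ∃ A n, Num Q A n := by
  obtain ⟨x, x', z, z', t, t', u, hop, htx, htz, hs, -⟩ := B.fr
  refine ⟨Nat.card (perp2 Q x x' ⊓ perp2 Q z z' ⊓ perp2 Q t t' : Submodule F V), nn Q (perp2 Q x x' ⊓ perp2 Q z z') 0, ?_, ?_⟩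
  · rw [card_W0 hop.h1, card_W1 hop, card_W2 hop htx.symm htz.symm]
    ring
  · rw [nn_top hop.h1, nn_W1 hop, card_W1 hop, card_W2 hop htx.symm htz.symm, ← qsq (two_le_q F)]
    ring

variable {A n : ℕ}

theorem Num.cW (N : Num Q A n) {x x' : V} (h : HP Q x x') : Nat.card (perp2 Q x x') = Nat.card F ^ 4 * A := by
  have h1 := card_W0 h
  rw [N.hA] at h1
  have hq : 0 < Nat.card F ^ 2 := pow_pos (lt_of_lt_of_le two_pos (two_le_q F)) 2
  apply Nat.eq_of_mul_eq_mul_left hq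
  rw [← h1]
  ring

theorem Num.nW (N : Num Q A n) {x x' : V} (h : HP Q x x') :
    nn Q (perp2 Q x x') 0 = Nat.card F * n + (Nat.card F - 1) * (Nat.card F ^ 2 * A) := by
  have h1 := nn_top h 0
  rw [N.hn, N.cW h] at h1
  have hq : 0 < Nat.card F := lt_of_lt_of_le two_pos (two_le_q F)
  apply Nat.eq_of_mul_eq_mul_left hq
  have h2 := qsq (two_le_q F) (Nat.card F ^ 3 * A)
  rw [← h2] at h1
  have h3 : (Nat.card F - 1) * (Nat.card F ^ 4 * A) = Nat.card F * ((Nat.card F - 1) * (Nat.card F ^ 3 * A)) := by ring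
  rw [h3] at h1
  have h4 : Nat.card F * (Nat.card F * n + (Nat.card F - 1) * (Nat.card F ^ 2 * A)) = Nat.card F ^ 2 * n + (Nat.card F - 1) * (Nat.card F ^ 3 * A) := by ring
  rw [h4]
  omega

theorem Num.cW' (N : Num Q A n) {x x' z z' : V} (h : OP Q x x' z z') :
    Nat.card (perp2 Q x x' ⊓ perp2 Q z z' : Submodule F V) = Nat.card F ^ 2 * A := by
  have h1 := card_W1 h
  rw [N.cW h.h1] at h1
  have hq : 0 < Nat.card F ^ 2 := pow_pos (lt_of_lt_of_le two_pos (two_le_q F)) 2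
  apply Nat.eq_of_mul_eq_mul_left hq
  rw [← h1]
  ring

theorem Num.nW' (N : Num Q A n) {x x' z z' : V} (h : OP Q x x' z z') :
    nn Q (perp2 Q x x' ⊓ perp2 Q z z') 0 = n := by
  have h1 := nn_W1 h 0
  rw [N.nW h.h1, N.cW' h] at h1
  have hq : 0 < Nat.card F := lt_of_lt_of_le two_pos (two_le_q F)
  apply Nat.eq_of_mul_eq_mul_left hq
  omega

theorem Num.cW'' (N : Num Q A n) {x x' z z' w w' : V} (h1 : OP Q x x' z z') (h2 : OP Q x x' w w') (h3 : OP Q z z' w w') :
    Nat.card (perp2 Q x x' ⊓ perp2 Q z z' ⊓ perp2 Q w w' : Submodule F V) = A := by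
  have e := card_W2 h1 h2 h3
  rw [N.cW' h1] at e
  have hq : 0 < Nat.card F ^ 2 := pow_pos (lt_of_lt_of_le two_pos (two_le_q F)) 2
  exact (Nat.eq_of_mul_eq_mul_left hq e).symm

theorem Num.nW'' (N : Num Q A n) {x x' z z' w w' : V} (h1 : OP Q x x' z z') (h2 : OP Q x x' w w') (h3 : OP Q z z' w w') :
    n = Nat.card F * nn Q (perp2 Q x x' ⊓ perp2 Q z z' ⊓ perp2 Q w w') 0 + (Nat.card F - 1) * A := by
  have e := nn_W2 h1 h2 h3 0
  rw [N.nW' h1, N.cW'' h1 h2 h3] at e
  exact e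

end nums

section tr
variable {F V : Type*} [Field F] [Finite F] [AddCommGroup V] [Module F V] [FiniteDimensional F V] {Q : QuadraticForm F V}
  {E : Type*} [AddCommGroup E] [Module ℂ E] (ρ : Representation ℂ (EG Q) E) [FiniteDimensional ℂ E]

theorem tr_ex (B : Big Q) {x x' y y' : V} (h : HP Q x x') (h' : HP Q y y') :
    LinearMap.trace ℂ E (ex ρ x) = LinearMap.trace ℂ E (ex ρ y) := by
  obtain ⟨g, g1, g2⟩ := B.conj_HP h h'
  apply trace_conj' ρ g
  rw [ex_conj ρ g h.1, g1]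

theorem tr_ex2 (B : Big Q) {x x' y y' : V} (h : HP Q x x') (h' : HP Q y y') :
    LinearMap.trace ℂ E (ex ρ x' * ex ρ x) = LinearMap.trace ℂ E (ex ρ y' * ex ρ y) := by
  obtain ⟨g, g1, g2⟩ := B.conj_HP h h'
  apply trace_conj' ρ g
  rw [← mul_assoc, ex_conj ρ g h.2.1, mul_assoc, ex_conj ρ g h.1, g1, g2, mul_assoc]

theorem tr_ex1 (B : Big Q) {x x' y y' z z' w w' : V} (h : OP Q x x' z z') (h' : OP Q y y' w w') :
    LinearMap.trace ℂ E (ex ρ x * ex ρ z) = LinearMap.trace ℂ E (ex ρ y * ex ρ w) := by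
  obtain ⟨g, g1, g2, g3, g4⟩ := B.conj_OP h h'
  apply trace_conj' ρ g
  rw [← mul_assoc, ex_conj ρ g h.h1.1, mul_assoc, ex_conj ρ g h.h2.1, g1, g3, mul_assoc]

theorem tr_A (B : Big Q) {x x' z z' : V} (h : OP Q x x' z z') :
    LinearMap.trace ℂ E (av ρ x (px Q x ⊓ px Q z)) = LinearMap.trace ℂ E (av ρ z (px Q z ⊓ px Q x)) := by
  obtain ⟨g, g1, g2, g3, g4⟩ := B.conj_OP h h.symm
  apply trace_conj' ρ g
  have := av_conj ρ g h.h1.1 (M := px Q x ⊓ px Q z) (fun (w : V) (hw : w ∈ px Q x ⊓ px Q z) => hw.1) (M' := px Q z ⊓ px Q x) (by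
    intro y
    have e1 := og_polar_inv g.1 x y
    have e2 := og_polar_inv g.1 z y
    rw [g1] at e1
    rw [g3] at e2
    constructor
    · intro hy
      exact ⟨e1.trans hy.1, e2.trans hy.2⟩
    · intro hy
      exact ⟨e1.symm.trans hy.1, e2.symm.trans hy.2⟩)
  rw [g1] at this
  exact this

theorem tr_R (B : Big Q) {x x' y y' z z' w w' : V} (h : OP Q x x' z z') (h' : OP Q y y' w w') :
    LinearMap.trace ℂ E (av ρ x (Submodule.span F {z})) = LinearMap.trace ℂ E (av ρ y (Submodule.span F {w})) := by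
  obtain ⟨g, g1, g2, g3, g4⟩ := B.conj_OP h h'
  apply trace_conj' ρ g
  have := av_conj ρ g h.h1.1 (M := Submodule.span F {z}) (fun (w : V) (hw : w ∈ Submodule.span F {z}) => by
    obtain ⟨c, rfl⟩ := Submodule.mem_span_singleton.1 hw
    rw [QuadraticMap.polar_smul_right, h.xz, smul_zero]) (M' := Submodule.span F {w}) (by
    intro y
    constructor
    · intro hy
      obtain ⟨c, rfl⟩ := Submodule.mem_span_singleton.1 hy
      rw [map_smul, ← g3, eg_inv']
      exact Submodule.smul_mem _ _ (Submodule.mem_span_singleton_self _)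
    · intro hy
      obtain ⟨c, hc⟩ := Submodule.mem_span_singleton.1 hy
      rw [← eg_inv g y, ← hc, map_smul, g3]
      exact Submodule.smul_mem _ _ (Submodule.mem_span_singleton_self _))
  rw [g1] at this
  exact this

end tr

end CfsgLib.Ow
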