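import Cfsg.Agent.LibWt3

/-! counting quadratic forms, odd characteristic (helper26) -/
set_option autoImplicit false
set_option linter.unusedSectionVars false

namespace CfsgLib.WtQ

open Matrix

variable {l : Type} [Fintype l] [DecidableEq l] {F : Type*} [Field F]

open Classical in
theorem card_Yodd [Fintype F] (h2 : (2 : F) ≠ 0) {X : Finset ((l → F) → F)} (hX : Stab X) (hQ : ∀ f ∈ X, QF f)
    {x : l → F} (hx : x ≠ 0) (Γ : Finset F) (hΓ : ∀ γ ∈ Γ, γ ≠ 0 ∧ ∃ f ∈ X, f x = γ) {h : ℕ}
    (hh : h * Fintype.card F = Fintype.card F ^ Fintype.card l) :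
    Γ.card * h ≤ (X.filter fun f => f x ≠ 0).card := by
  set H : Finset (l → F) := Finset.univ.filter fun a => a ⬝ᵥ x = 0 with hH
  have hHc : H.card = h := by
    have := card_hyper (F := F) hx
    have h3 : H.card * Fintype.card F = h * Fintype.card F := by rw [hh, ← this]
    exact Nat.eq_of_mul_eq_mul_right Fintype.card_pos h3
  have hx0 : ∀ b, b ∈ H → b ⬝ᵥ x = 0 := fun b hb => by
    rw [hH, Finset.mem_filter] at hb; exact hb.2
  have hT : ∀ a : l → F, a ∈ H → ∃ A : GL l F, ∀ z, (A : Matrix l l F) *ᵥ z = z + (a ⬝ᵥ z) • x := by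
    intro a ha
    exact exists_T a x (by rw [hx0 a ha, add_zero]; exact one_ne_zero)
  choose! T hT using hT
  choose! f hfX hfx using fun γ hγ => (hΓ γ hγ).2
  rw [← hHc, ← Finset.card_product]
  refine Finset.card_le_card_of_injOn (fun p => fun z => f p.1 ((T p.2 : Matrix l l F) *ᵥ z)) ?_ ?_
  · rintro ⟨γ, a⟩ hp
    rw [Finset.mem_coe, Finset.mem_product] at hp
    rw [Finset.mem_coe, Finset.mem_filter]
    refine ⟨hX _ (hfX _ hp.1) _, ?_⟩
    simp only
    rw [hT a hp.2, hx0 a hp.2, zero_smul, add_zero, hfx γ hp.1]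
    exact (hΓ γ hp.1).1
  · rintro ⟨γ, a⟩ hp ⟨γ', a'⟩ hp' heq
    rw [Finset.mem_coe, Finset.mem_product] at hp hp'
    simp only at hp hp' heq
    have e1 : γ = γ' := by
      have := congrFun heq x
      rw [hT a hp.2, hx0 a hp.2, zero_smul, add_zero, hfx γ hp.1, hT a' hp'.2, hx0 a' hp'.2, zero_smul, add_zero,
        hfx γ' hp'.1] at this
      exact this
    subst e1
    have e2 : ∀ y, a ⬝ᵥ y = a' ⬝ᵥ y := by
      intro y
      have h3 : ∀ b ∈ H, pol (fun z => f γ ((T b : Matrix l l F) *ᵥ z)) x y = pol (f γ) x y + 2 * γ * (b ⬝ᵥ y) := by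
        intro b hb
        rw [pol_comp, hT b hb, hx0 b hb, zero_smul, add_zero, hT b hb, (hQ _ (hfX _ hp.1)).add,
          (hQ _ (hfX _ hp.1)).psm, (hQ _ (hfX _ hp.1)).pol_self, hfx γ hp.1]
        ring
      have h4 := h3 a hp.2
      have h5 := h3 a' hp'.2
      rw [heq, h5] at h4
      exact (mul_left_cancel₀ (mul_ne_zero h2 (hΓ γ hp.1).1) (add_left_cancel h4)).symm
    have e3 : a = a' := by
      ext i
      have := e2 (Pi.single i 1)
      simpa using this
    rw [e3]

theorem attain_sq {X : Finset ((l → F) → F)} (hX : Stab X) (hQ : ∀ f ∈ X, QF f)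
    {f₀ : (l → F) → F} (hf₀ : f₀ ∈ X) {u : l → F} (hu : f₀ u ≠ 0) {x : l → F} (hx : x ≠ 0) {c : F} (hc : c ≠ 0) :
    ∃ f ∈ X, f x = c ^ 2 * f₀ u := by
  have hu0 : u ≠ 0 := by
    rintro rfl
    exact hu (hQ f₀ hf₀).zero
  obtain ⟨A1, hA1⟩ := exists_move hx (u := c • u) (smul_ne_zero hc hu0)
  refine ⟨_, hX f₀ hf₀ A1, ?_⟩
  rw [hA1, (hQ f₀ hf₀).smul]

theorem sum_two_sq [Fintype F] (h2 : (2 : F) ≠ 0) (ν : F) : ∃ a b : F, a ^ 2 + b ^ 2 = ν := by
  have hodd : Fintype.card F % 2 = 1 := by
    apply FiniteField.odd_card_of_char_ne_two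
    intro h
    apply h2
    have := ringChar.spec F 2
    have h3 : ((2 : ℕ) : F) = 0 := by rw [this, h]
    exact_mod_cast h3
  obtain ⟨a, b, hab⟩ := FiniteField.exists_root_sum_quadratic (R := F) (f := Polynomial.X ^ 2)
    (g := Polynomial.X ^ 2 - Polynomial.C ν) (Polynomial.degree_X_pow 2) (Polynomial.degree_X_pow_sub_C (by norm_num) _) hodd
  refine ⟨a, b, ?_⟩
  simp only [Polynomial.eval_pow, Polynomial.eval_X, Polynomial.eval_sub, Polynomial.eval_C] at hab
  linear_combination hab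

theorem exists_nonsq [Fintype F] (h2 : (2 : F) ≠ 0) : ∃ ν : F, ¬ IsSquare ν := by
  refine FiniteField.exists_nonsquare ?_
  intro h
  apply h2
  have := ringChar.spec F 2
  have h3 : ((2 : ℕ) : F) = 0 := by rw [this, h]
  exact_mod_cast h3

theorem isSquare_div_of_not [Fintype F] [DecidableEq F] {a b : F} (ha : ¬ IsSquare a) (hb : ¬ IsSquare b) : IsSquare (a / b) := by
  have ha0 : a ≠ 0 := by rintro rfl; exact ha (IsSquare.zero)
  have hb0 : b ≠ 0 := by rintro rfl; exact hb (IsSquare.zero)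
  rw [← quadraticChar_neg_one_iff_not_isSquare] at ha hb
  have h3 : quadraticChar F (a * b) = 1 := by rw [map_mul, ha, hb]; norm_num
  rw [quadraticChar_one_iff_isSquare (mul_ne_zero ha0 hb0)] at h3
  obtain ⟨c, hc⟩ := h3
  exact ⟨c / b, by field_simp; rw [hc]; ring⟩

theorem card_sq [Fintype F] [DecidableEq F] {γ : F} (hγ : γ ≠ 0) :
    Fintype.card F - 1 ≤ 2 * ((Finset.univ.erase (0 : F)).image fun c => c ^ 2 * γ).card := by
  have h1 := Finset.card_le_mul_card_image (f := fun c : F => c ^ 2 * γ) (Finset.univ.erase (0 : F)) 2 (by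
    intro a ha
    rw [Finset.mem_image] at ha
    obtain ⟨c, hc, rfl⟩ := ha
    refine le_trans (Finset.card_le_card (t := {c, -c}) ?_) Finset.card_le_two
    intro d hd
    rw [Finset.mem_filter] at hd
    rw [Finset.mem_insert, Finset.mem_singleton]
    exact sq_eq_sq_iff_eq_or_eq_neg.mp (mul_right_cancel₀ hγ hd.2))
  rwa [Finset.card_erase_of_mem (Finset.mem_univ _), Finset.card_univ] at h1

open Classical in
theorem count_odd [Fintype F] (h2 : (2 : F) ≠ 0) (hl : 1 ≤ Fintype.card l) {X : Finset ((l → F) → F)} (hX : Stab X)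
    (hQ : ∀ f ∈ X, QF f) (hne : ∃ f ∈ X, ∃ x, f x ≠ 0) :
    Fintype.card F ^ Fintype.card l - 1 ≤ 2 * (X.filter fun f => ∃ x, f x ≠ 0).card := by
  obtain ⟨f₀, hf₀, u, hu⟩ := hne
  obtain ⟨k, hk⟩ := Nat.exists_eq_add_of_le hl
  set q := Fintype.card F with hq
  have hq1 : 1 < q := Fintype.one_lt_card
  have hq3 : 3 ≤ q := by
    by_contra hcon
    have hq2 : Fintype.card F = 2 := by omega
    apply h2
    have := Nat.cast_card_eq_zero F
    rw [hq2] at this
    exact_mod_cast this
  set h := q ^ k with hh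
  have hh0 : 0 < h := pow_pos (by omega) _
  have hn : q ^ Fintype.card l = q * h := by rw [hk, pow_add, pow_one]
  set X' := X.filter fun f => ∃ x, f x ≠ 0 with hX'
  have hdc := Finset.sum_card_bipartiteAbove_eq_sum_card_bipartiteBelow (s := (Finset.univ.erase (0 : l → F))) (t := X')
    (fun x f => f x ≠ 0)
  simp only [Finset.bipartiteAbove, Finset.bipartiteBelow] at hdc
  have h8 : (Finset.univ.erase (0 : l → F)).card = q * h - 1 := by
    rw [Finset.card_erase_of_mem (Finset.mem_univ _), Finset.card_univ, Fintype.card_fun, ← hq, hn]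
  have hYX : ∀ x : l → F, (X.filter fun f => f x ≠ 0).card ≤ (X'.filter fun f => f x ≠ 0).card := by
    intro x
    refine Finset.card_le_card ?_
    intro f hf
    rw [Finset.mem_filter] at hf
    rw [hX', Finset.mem_filter, Finset.mem_filter]
    exact ⟨⟨hf.1, x, hf.2⟩, hf.2⟩
  rw [hn]
  by_cases hA : ∃ f₁ ∈ X, ∃ u₁, f₁ u₁ ≠ 0 ∧ ¬ IsSquare (f₁ u₁ / f₀ u)
  · obtain ⟨f₁, hf₁, u₁, hu₁, hns⟩ := hA
    have hY : ∀ x ∈ (Finset.univ.erase (0 : l → F)), (q - 1) * h ≤ (X'.filter fun f => f x ≠ 0).card := by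
      intro x hx
      refine le_trans ?_ (hYX x)
      have := card_Yodd h2 hX hQ (Finset.ne_of_mem_erase hx) (Finset.univ.erase (0 : F)) (fun γ hγ => ?_) (h := h)
        (by rw [← hq, hn, mul_comm])
      · rwa [Finset.card_erase_of_mem (Finset.mem_univ _), Finset.card_univ] at this
      · have hγ0 := Finset.ne_of_mem_erase hγ
        refine ⟨hγ0, ?_⟩
        by_cases hs : IsSquare (γ / f₀ u)
        · obtain ⟨c, hc⟩ := hs
          obtain ⟨f, hf, hfx⟩ := attain_sq hX hQ hf₀ hu (Finset.ne_of_mem_erase hx) (c := c) (by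
            rintro rfl
            rw [mul_zero, div_eq_zero_iff] at hc
            exact hc.elim hγ0 hu)
          exact ⟨f, hf, by rw [hfx, sq, ← hc, div_mul_cancel₀ _ hu]⟩
        · obtain ⟨c, hc⟩ := isSquare_div_of_not hs hns
          have hc' : γ / f₁ u₁ = c * c := by rw [← hc]; field_simp
          obtain ⟨f, hf, hfx⟩ := attain_sq hX hQ hf₁ hu₁ (Finset.ne_of_mem_erase hx) (c := c) (by
            rintro rfl
            rw [mul_zero, div_eq_zero_iff] at hc'
            exact hc'.elim hγ0 hu₁)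
          exact ⟨f, hf, by rw [hfx, sq, ← hc', div_mul_cancel₀ _ hu₁]⟩
    have h6 : (q * h - 1) * ((q - 1) * h) ≤ X'.card * (q * h - 1) := by
      rw [← h8, ← smul_eq_mul, ← smul_eq_mul]
      refine (Finset.card_nsmul_le_sum _ _ _ hY).trans ?_
      rw [hdc]
      exact Finset.sum_le_card_nsmul _ _ _ fun f _ => Finset.card_filter_le _ _
    rw [mul_comm] at h6
    have hpos : 0 < q * h - 1 := by
      have : 3 * 1 ≤ q * h := Nat.mul_le_mul hq3 hh0
      omega
    have h7 := Nat.le_of_mul_le_mul_right h6 hpos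
    obtain ⟨r, hr⟩ : ∃ r, q = r + 1 := ⟨q - 1, by omega⟩
    rw [hr] at h7 ⊢
    rw [Nat.add_sub_cancel] at h7
    have : (r + 1) * h ≤ 2 * (r * h) := by
      have : h ≤ r * h := Nat.le_mul_of_pos_left h (by omega)
      calc (r + 1) * h = r * h + h := by ring
        _ ≤ r * h + r * h := by omega
        _ = 2 * (r * h) := by ring
    omega
  · push Not at hA
    have hY : ∀ x ∈ (Finset.univ.erase (0 : l → F)), (q - 1) * h ≤ 2 * (X'.filter fun f => f x ≠ 0).card := by
      intro x hx
      refine le_trans ?_ (Nat.mul_le_mul_left 2 (hYX x))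
      have := card_Yodd h2 hX hQ (Finset.ne_of_mem_erase hx) ((Finset.univ.erase (0 : F)).image fun c => c ^ 2 * f₀ u)
        (fun γ hγ => ?_) (h := h) (by rw [← hq, hn, mul_comm])
      · calc (q - 1) * h ≤ (2 * ((Finset.univ.erase (0 : F)).image fun c => c ^ 2 * f₀ u).card) * h :=
            Nat.mul_le_mul_right _ (card_sq hu)
          _ = 2 * (((Finset.univ.erase (0 : F)).image fun c => c ^ 2 * f₀ u).card * h) := by ring
          _ ≤ _ := Nat.mul_le_mul_left 2 this
      · rw [Finset.mem_image] at hγ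
        obtain ⟨c, hc, rfl⟩ := hγ
        have hc0 := Finset.ne_of_mem_erase hc
        exact ⟨mul_ne_zero (pow_ne_zero 2 hc0) hu, attain_sq hX hQ hf₀ hu (Finset.ne_of_mem_erase hx) hc0⟩
    have hZ : ∀ f ∈ X', ((Finset.univ.erase (0 : l → F)).filter fun x => f x ≠ 0).card ≤ q * h - h := by
      intro f hf
      rw [hX', Finset.mem_filter] at hf
      obtain ⟨hfX, e, he⟩ := hf
      have hQf := hQ f hfX
      obtain ⟨b, hb⟩ := hQf.exists_vec e
      have hb0 : b ≠ 0 := by
        rintro rfl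
        have := hb e
        rw [hQf.pol_self, zero_dotProduct] at this
        exact mul_ne_zero h2 he this
      have hz : ∀ z, z ⬝ᵥ b = 0 → f z = 0 := by
        intro z hz
        by_contra hfz
        obtain ⟨c, hc⟩ := hA f hfX e he
        obtain ⟨d, hd⟩ := hA f hfX z hfz
        have hc' : f e = c * c * f₀ u := by rw [← hc, div_mul_cancel₀ _ hu]
        have hd' : f z = d * d * f₀ u := by rw [← hd, div_mul_cancel₀ _ hu]
        have hc0 : c ≠ 0 := by rintro rfl; rw [zero_mul, zero_mul] at hc'; exact he hc'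
        have hd0 : d ≠ 0 := by rintro rfl; rw [zero_mul, zero_mul] at hd'; exact hfz hd'
        obtain ⟨ν, hν⟩ := exists_nonsq h2
        obtain ⟨s, t, hst⟩ := sum_two_sq h2 ν
        have hval : f ((s / c) • e + (t / d) • z) = ν * f₀ u := by
          rw [QF.map_add (f := f), hQf.smul, hQf.smul, hQf.psm_left, hQf.psm, hb, dotProduct_comm, hz, mul_zero, mul_zero,
            add_zero, hc', hd', ← hst]
          field_simp
        have hν0 : ν ≠ 0 := by rintro rfl; exact hν IsSquare.zero
        have := hA f hfX _ (by rw [hval]; exact mul_ne_zero hν0 hu)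
        rw [hval, mul_div_cancel_right₀ _ hu] at this
        exact hν this
      have h1 := card_hyper (F := F) hb0
      rw [← hq, hn, mul_comm] at h1
      have h3 := Nat.eq_of_mul_eq_mul_left (show 0 < q by omega) h1
      have h4 : ((Finset.univ.erase (0 : l → F)).filter fun x => f x ≠ 0).card ≤ (Finset.univ.filter fun x => f x ≠ 0).card :=
        Finset.card_le_card (Finset.filter_subset_filter _ (Finset.erase_subset _ _))
      have h5 := Finset.card_filter_add_card_filter_not (s := (Finset.univ : Finset (l → F))) (fun x => f x ≠ 0)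
      rw [Finset.card_univ, Fintype.card_fun, ← hq, hn] at h5
      have h6 : h ≤ (Finset.univ.filter fun x : l → F => ¬ f x ≠ 0).card := by
        rw [← h3]
        refine Finset.card_le_card fun z hz' => ?_
        rw [Finset.mem_filter] at hz' ⊢
        exact ⟨Finset.mem_univ _, fun h' => h' (hz z hz'.2)⟩
      omega
    have h6 : (q * h - 1) * ((q - 1) * h) ≤ 2 * (X'.card * (q * h - h)) := by
      rw [← h8, ← smul_eq_mul]
      refine (Finset.card_nsmul_le_sum _ _ _ hY).trans ?_
      rw [← Finset.mul_sum, hdc]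
      refine Nat.mul_le_mul_left 2 ?_
      rw [← smul_eq_mul]
      exact Finset.sum_le_card_nsmul _ _ _ hZ
    have e1 : q * h - h = (q - 1) * h := by rw [Nat.sub_mul, one_mul]
    rw [e1] at h6
    have h7 : ((q - 1) * h) * (q * h - 1) ≤ ((q - 1) * h) * (2 * X'.card) := by
      calc ((q - 1) * h) * (q * h - 1) = (q * h - 1) * ((q - 1) * h) := mul_comm _ _
        _ ≤ 2 * (X'.card * ((q - 1) * h)) := h6
        _ = ((q - 1) * h) * (2 * X'.card) := by ring
    exact Nat.le_of_mul_le_mul_left h7 (Nat.mul_pos (by omega) hh0)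

end CfsgLib.WtQ
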