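import Cfsg.Agent.LibWt1
import Cfsg.Agent.LibWt4

/-! weights of the Siegel radical of the symplectic group (helper26) -/
set_option autoImplicit false
set_option linter.unusedSectionVars false

namespace CfsgLib.WtSp

open Matrix Module CfsgLib.Wt CfsgLib.WtQ

variable {l : Type} [Fintype l] [DecidableEq l] {F : Type*} [Field F]

/-- symmetric matrices -/
def SymG (l : Type) (F : Type*) [Field F] : AddSubgroup (Matrix l l F) where
  carrier := {S | Sᵀ = S}
  add_mem' {a b} ha hb := by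
    change (a + b)ᵀ = a + b
    rw [transpose_add, show aᵀ = a from ha, show bᵀ = b from hb]
  zero_mem' := transpose_zero
  neg_mem' {a} ha := by
    change (-a)ᵀ = -a
    rw [transpose_neg, show aᵀ = a from ha]

theorem symG_t (S : SymG l F) : (S : Matrix l l F)ᵀ = S := S.2

theorem jmem (S : SymG l F) : fromBlocks 1 (S : Matrix l l F) 0 1 ∈ symplecticGroup l F := by
  rw [SymplecticGroup.mem_iff, J, fromBlocks_transpose, fromBlocks_multiply, fromBlocks_multiply]
  simp [symG_t]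

/-- the Siegel radical -/
def jS (l : Type) [Fintype l] [DecidableEq l] (F : Type*) [Field F] : Multiplicative (SymG l F) →* symplecticGroup l F where
  toFun S := ⟨fromBlocks 1 (Multiplicative.toAdd S : SymG l F) 0 1, jmem _⟩
  map_one' := by
    apply Subtype.ext
    change fromBlocks 1 ((0 : SymG l F) : Matrix l l F) 0 1 = 1
    simp
  map_mul' S T := by
    apply Subtype.ext
    change fromBlocks 1 ((Multiplicative.toAdd S + Multiplicative.toAdd T : SymG l F) : Matrix l l F) 0 1 =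
      fromBlocks 1 ((Multiplicative.toAdd S : SymG l F) : Matrix l l F) 0 1 *
      fromBlocks 1 ((Multiplicative.toAdd T : SymG l F) : Matrix l l F) 0 1
    rw [fromBlocks_multiply]
    simp [add_comm]

theorem jS_val (S : SymG l F) : ((jS l F (Multiplicative.ofAdd S) : symplecticGroup l F) : Matrix (l ⊕ l) (l ⊕ l) F) =
    fromBlocks 1 (S : Matrix l l F) 0 1 := rfl

theorem levi_mem (A : GL l F) : fromBlocks (A : Matrix l l F) 0 0 ((A⁻¹ : GL l F) : Matrix l l F)ᵀ ∈ symplecticGroup l F := by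
  rw [SymplecticGroup.mem_iff, J, fromBlocks_transpose, fromBlocks_multiply, fromBlocks_multiply]
  have h1 : (A : Matrix l l F) * ((A⁻¹ : GL l F) : Matrix l l F) = 1 := by rw [← Units.val_mul, mul_inv_cancel, Units.val_one]
  have h2 : ((A⁻¹ : GL l F) : Matrix l l F)ᵀ * (A : Matrix l l F)ᵀ = 1 := by rw [← transpose_mul, h1, transpose_one]
  generalize ((A⁻¹ : GL l F) : Matrix l l F) = B at *
  simp [h1, h2]

def levi (A : GL l F) : symplecticGroup l F := ⟨_, levi_mem A⟩

/-- the action on symmetric matrices -/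
def act (A : GL l F) : SymG l F →+ SymG l F where
  toFun S := ⟨(A : Matrix l l F) * (S : Matrix l l F) * (A : Matrix l l F)ᵀ, by
    change ((A : Matrix l l F) * (S : Matrix l l F) * (A : Matrix l l F)ᵀ)ᵀ = _
    rw [transpose_mul, transpose_mul, transpose_transpose, symG_t, mul_assoc]⟩
  map_zero' := by apply Subtype.ext; simp
  map_add' S T := by
    apply Subtype.ext
    simp [mul_add, add_mul]

theorem levi_conj (A : GL l F) (S : SymG l F) :
    levi A * jS l F (Multiplicative.ofAdd S) * (levi A)⁻¹ = jS l F (Multiplicative.ofAdd (act A S)) := by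
  rw [mul_inv_eq_iff_eq_mul]
  apply Subtype.ext
  rw [Submonoid.coe_mul, Submonoid.coe_mul, jS_val, jS_val]
  change fromBlocks (A : Matrix l l F) 0 0 ((A⁻¹ : GL l F) : Matrix l l F)ᵀ * _ = _ *
    fromBlocks (A : Matrix l l F) 0 0 ((A⁻¹ : GL l F) : Matrix l l F)ᵀ
  have h1 : ((A⁻¹ : GL l F) : Matrix l l F) * (A : Matrix l l F) = 1 := by rw [← Units.val_mul, inv_mul_cancel, Units.val_one]
  have h2 : (A : Matrix l l F)ᵀ * ((A⁻¹ : GL l F) : Matrix l l F)ᵀ = 1 := by rw [← transpose_mul, h1, transpose_one]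
  rw [fromBlocks_multiply, fromBlocks_multiply]
  have h3 : ((act A S : SymG l F) : Matrix l l F) = (A : Matrix l l F) * S * (A : Matrix l l F)ᵀ := rfl
  rw [h3]
  generalize ((A⁻¹ : GL l F) : Matrix l l F) = B at *
  simp [Matrix.mul_assoc, h2]

/-- rank one -/
def rk1 (x : l → F) (c : F) : SymG l F := ⟨c • vecMulVec x x, by
  change (c • vecMulVec x x)ᵀ = _
  rw [transpose_smul, transpose_vecMulVec]⟩

def rk2 (x y : l → F) (c : F) : SymG l F := ⟨c • (vecMulVec x y + vecMulVec y x), by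
  change (c • (vecMulVec x y + vecMulVec y x))ᵀ = _
  rw [transpose_smul, transpose_add, transpose_vecMulVec, transpose_vecMulVec, add_comm]⟩

theorem rk1_add (x : l → F) (c d : F) : rk1 x (c + d) = rk1 x c + rk1 x d := Subtype.ext (add_smul _ _ _)

theorem rk1_smul (x : l → F) (a c : F) : rk1 (a • x) c = rk1 x (a ^ 2 * c) := by
  apply Subtype.ext
  change c • vecMulVec (a • x) (a • x) = (a ^ 2 * c) • vecMulVec x x
  rw [smul_vecMulVec, vecMulVec_smul, smul_smul, smul_smul]
  congr 1; ring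

theorem rk1_sum (x y : l → F) (c : F) : rk1 (x + y) c = rk1 x c + rk1 y c + rk2 x y c := by
  apply Subtype.ext
  change c • vecMulVec (x + y) (x + y) = c • vecMulVec x x + c • vecMulVec y y + c • (vecMulVec x y + vecMulVec y x)
  rw [vecMulVec_add, add_vecMulVec, add_vecMulVec, ← smul_add, ← smul_add]
  congr 1; abel

theorem rk2_add (x y z : l → F) (c : F) : rk2 x (y + z) c = rk2 x y c + rk2 x z c := by
  apply Subtype.ext
  change c • (vecMulVec x (y + z) + vecMulVec (y + z) x) = c • (vecMulVec x y + vecMulVec y x) +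
    c • (vecMulVec x z + vecMulVec z x)
  rw [vecMulVec_add, add_vecMulVec, ← smul_add]
  congr 1; abel

theorem rk2_smul (x y : l → F) (a c : F) : rk2 x (a • y) c = rk2 x y (a * c) := by
  apply Subtype.ext
  change c • (vecMulVec x (a • y) + vecMulVec (a • y) x) = (a * c) • (vecMulVec x y + vecMulVec y x)
  rw [smul_vecMulVec, vecMulVec_smul, ← smul_add, smul_smul, mul_comm]

theorem act_rk1 (A : GL l F) (x : l → F) (c : F) : act A (rk1 x c) = rk1 ((A : Matrix l l F) *ᵥ x) c := by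
  apply Subtype.ext
  change (A : Matrix l l F) * (c • vecMulVec x x) * (A : Matrix l l F)ᵀ = c • vecMulVec _ _
  rw [Matrix.mul_smul, Matrix.smul_mul, Matrix.mul_vecMulVec, Matrix.vecMulVec_mul, vecMul_transpose]

section forms

variable [Finite F] {ψ : AddChar F ℂ}

theorem exists_psi (F : Type*) [Field F] [Finite F] : ∃ ψ : AddChar F ℂ, ψ ≠ 1 := by
  obtain ⟨ψ, hψ⟩ := (AddChar.exists_apply_ne_zero (α := F) (a := 1)).mpr one_ne_zero
  exact ⟨ψ, fun h => hψ (by rw [h]; rfl)⟩

theorem psi_inj (hψ : ψ ≠ 1) {a b : F} (h : ∀ c, ψ (a * c) = ψ (b * c)) : a = b := by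
  refine AddChar.to_mulShift_inj_of_isPrimitive (AddChar.IsPrimitive.of_ne_one hψ) ?_
  ext c
  simpa using h c

theorem psi_surj (hψ : ψ ≠ 1) (χ : AddChar F ℂ) : ∃ a : F, ∀ c, χ c = ψ (a * c) := by
  classical
  cases nonempty_fintype F
  have h1 : Function.Bijective (AddChar.mulShift ψ) := by
    rw [Fintype.bijective_iff_injective_and_card]
    exact ⟨AddChar.to_mulShift_inj_of_isPrimitive (AddChar.IsPrimitive.of_ne_one hψ), AddChar.card_eq.symm⟩
  obtain ⟨a, ha⟩ := h1.2 χ
  exact ⟨a, fun c => by rw [← ha, AddChar.mulShift_apply]⟩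

/-- the quadratic form of a character -/
theorem exists_fq (hψ : ψ ≠ 1) (χ : AddChar (SymG l F) ℂ) : ∃ f : (l → F) → F, ∀ x c, χ (rk1 x c) = ψ (f x * c) := by
  have h : ∀ x : l → F, ∃ a : F, ∀ c, χ (rk1 x c) = ψ (a * c) := by
    intro x
    exact psi_surj hψ ⟨fun c => χ (rk1 x c), by
      have : rk1 x (0 : F) = 0 := Subtype.ext (zero_smul _ _)
      rw [this, AddChar.map_zero_eq_one], fun c d => by rw [rk1_add, AddChar.map_add_eq_mul]⟩
  choose f hf using h
  exact ⟨f, hf⟩

noncomputable def fq (hψ : ψ ≠ 1) (χ : AddChar (SymG l F) ℂ) : (l → F) → F := (exists_fq hψ χ).choose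

theorem fq_spec (hψ : ψ ≠ 1) (χ : AddChar (SymG l F) ℂ) (x : l → F) (c : F) : χ (rk1 x c) = ψ (fq hψ χ x * c) :=
  (exists_fq hψ χ).choose_spec x c

theorem pol_spec (hψ : ψ ≠ 1) (χ : AddChar (SymG l F) ℂ) (x y : l → F) (c : F) :
    χ (rk2 x y c) = ψ (pol (fq hψ χ) x y * c) := by
  have h1 := fq_spec hψ χ (x + y) c
  rw [rk1_sum, AddChar.map_add_eq_mul, AddChar.map_add_eq_mul, fq_spec hψ, fq_spec hψ] at h1
  have h2 : fq hψ χ (x + y) * c = fq hψ χ x * c + fq hψ χ y * c + pol (fq hψ χ) x y * c := by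
    unfold pol; ring
  rw [h2, AddChar.map_add_eq_mul, AddChar.map_add_eq_mul] at h1
  exact mul_left_cancel₀ (mul_ne_zero (AddChar.val_isUnit _ _).ne_zero (AddChar.val_isUnit _ _).ne_zero) h1

theorem fq_QF (hψ : ψ ≠ 1) (χ : AddChar (SymG l F) ℂ) : QF (fq hψ χ) := by
  refine ⟨fun a x => psi_inj hψ fun c => ?_, fun x y z => psi_inj hψ fun c => ?_, fun a x y => psi_inj hψ fun c => ?_⟩
  · rw [← fq_spec, rk1_smul, fq_spec hψ]
    congr 1; ring
  · rw [← pol_spec, rk2_add, AddChar.map_add_eq_mul, pol_spec hψ, pol_spec hψ, ← AddChar.map_add_eq_mul]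
    congr 1; ring
  · rw [← pol_spec, rk2_smul, pol_spec hψ]
    congr 1; ring

theorem fq_comp (hψ : ψ ≠ 1) (χ : AddChar (SymG l F) ℂ) (A : GL l F) :
    fq hψ (χ.compAddMonoidHom (act A)) = fun x => fq hψ χ ((A : Matrix l l F) *ᵥ x) := by
  funext x
  refine psi_inj hψ fun c => ?_
  rw [← fq_spec, AddChar.compAddMonoidHom_apply, act_rk1, fq_spec hψ]

end forms

open Classical in
theorem weights [Fintype F] {V : Type*} [AddCommGroup V] [Module ℂ V] [FiniteDimensional ℂ V]
    (ρ : Representation ℂ (symplecticGroup l F) V) :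
    ∃ X : Finset ((l → F) → F), Stab X ∧ (∀ f ∈ X, QF f) ∧ X.card ≤ finrank ℂ V ∧
      (∀ p : ((l → F) → F) → Prop, (X.filter p).card ≤ finrank ℂ V) ∧
      ((∀ f ∈ X, ∀ x, f x = 0) → ∀ x c, ρ (jS l F (Multiplicative.ofAdd (rk1 x c))) = 1) ∧
      ((∀ f ∈ X, ∀ x y, pol f x y = 0) → ∀ x y c, ρ (jS l F (Multiplicative.ofAdd (rk2 x y c))) = 1) := by
  obtain ⟨ψ, hψ⟩ := exists_psi F
  set W : Finset (AddChar (SymG l F) ℂ) := Finset.univ.filter fun χ => wt ρ (jS l F) χ ≠ ⊥ with hW
  have hWc : W.card ≤ finrank ℂ V := card_le ρ (jS l F) W (fun χ hχ => (Finset.mem_filter.mp hχ).2)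
  have hXc : (W.image (fq hψ)).card ≤ finrank ℂ V := Finset.card_image_le.trans hWc
  refine ⟨W.image (fq hψ), ?_, ?_, hXc, fun p => (Finset.card_filter_le _ _).trans hXc, ?_, ?_⟩
  · intro f hf A
    rw [Finset.mem_image] at hf ⊢
    obtain ⟨χ, hχ, rfl⟩ := hf
    refine ⟨χ.compAddMonoidHom (act A), ?_, fq_comp hψ χ A⟩
    rw [hW, Finset.mem_filter] at hχ ⊢
    exact ⟨Finset.mem_univ _, wt_comp_ne_bot ρ (jS l F) (levi A) (act A) (levi_conj A) χ hχ.2⟩
  · intro f hf
    rw [Finset.mem_image] at hf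
    obtain ⟨χ, hχ, rfl⟩ := hf
    exact fq_QF hψ χ
  · intro h x c
    refine apply_eq_of_forall ρ (jS l F) _ fun χ hχ => ?_
    rw [fq_spec hψ, h _ (Finset.mem_image_of_mem _ (Finset.mem_filter.mpr ⟨Finset.mem_univ _, hχ⟩)), zero_mul,
      AddChar.map_zero_eq_one]
  · intro h x y c
    refine apply_eq_of_forall ρ (jS l F) _ fun χ hχ => ?_
    rw [pol_spec hψ, h _ (Finset.mem_image_of_mem _ (Finset.mem_filter.mpr ⟨Finset.mem_univ _, hχ⟩)), zero_mul,
      AddChar.map_zero_eq_one]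

end CfsgLib.WtSp
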