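import Cfsg.Agent.LibOw14
import Cfsg.Agent.LibWt5
import Cfsg.Agent.LibH22OForms
import Cfsg.Agent.LibH22OOrd3

set_option autoImplicit false
set_option linter.unusedSectionVars false

/-! The numerical conclusions (helper26). -/

namespace CfsgLib.Ow

open Cfsg.Agent.H22 Module

theorem odd_num {q X d k T : ℤ} (hq : 3 ≤ q) (hX : q ^ 2 < X) (hk : 0 ≤ k)
    (hm : d * ((q ^ 2 - 1) * (X * (q - 1 + k) + (q - 1) - q * k)) = (X - 1) * (q ^ 2 * X - 1) * (q - 1 + k))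
    (hT : (q ^ 2 - 1) * T = q ^ 2 * X - 1) : T ≤ d := by
  by_contra hcon
  push Not at hcon
  obtain ⟨D, hD⟩ : ∃ D, D = T - d := ⟨_, rfl⟩
  have hD1 : 1 ≤ D := by omega
  have hd : d = T - D := by omega
  set Br := X * (q - 1 + k) + (q - 1) - q * k with hBr
  have hq2 : q ^ 2 = q * q := by ring
  have hXq : q < X := by nlinarith
  have hBrpos : 0 < Br := by
    rw [hBr]
    nlinarith [mul_nonneg hk (by linarith : (0:ℤ) ≤ X - q), mul_pos (by linarith : (0:ℤ) < X) (by linarith : (0:ℤ) < q - 1)]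
  have key : (q ^ 2 * X - 1) * (2 - k) = (q + 1) * D * Br := by
    have h1 : q - 1 ≠ 0 := by omega
    apply mul_left_cancel₀ h1
    rw [hd] at hm
    linear_combination hm - Br * hT - (q ^ 2 * X - 1) * hBr
  have hM : 0 < q ^ 2 * X - 1 := by nlinarith
  have hR : 0 < (q + 1) * D * Br := mul_pos (mul_pos (by linarith) (by linarith)) hBrpos
  rcases (show k = 0 ∨ k = 1 ∨ 2 ≤ k by omega) with h | h | h
  · subst h
    have hB0 : Br = (q - 1) * (X + 1) := by rw [hBr]; ring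
    rw [hB0] at key
    -- 2 (q² X - 1) = D (q² - 1)(X + 1)
    have key' : 2 * (q ^ 2 * X - 1) = D * ((q ^ 2 - 1) * (X + 1)) := by linear_combination key
    have hp : 0 < (q ^ 2 - 1) * (X + 1) := by
      apply mul_pos
      · nlinarith
      · linarith
    rcases (show D = 1 ∨ D = 2 ∨ 3 ≤ D by omega) with h | h | h
    · rw [h] at key'
      nlinarith
    · rw [h] at key'
      nlinarith
    · have h3 : 3 * ((q ^ 2 - 1) * (X + 1)) ≤ D * ((q ^ 2 - 1) * (X + 1)) := mul_le_mul_of_nonneg_right h hp.le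
      nlinarith [mul_pos (by linarith : (0:ℤ) < X) (by nlinarith : (0:ℤ) < q ^ 2 - 3)]
  · subst h
    have hB1 : Br = X * q - 1 := by rw [hBr]; ring
    rw [hB1] at key
    have hp : 0 < (q + 1) * (X * q - 1) := by
      apply mul_pos
      · linarith
      · nlinarith
    have h3 : 1 * ((q + 1) * (X * q - 1)) ≤ D * ((q + 1) * (X * q - 1)) := mul_le_mul_of_nonneg_right hD1 hp.le
    nlinarith
  · have : (q ^ 2 * X - 1) * (2 - k) ≤ 0 := mul_nonpos_of_nonneg_of_nonpos hM.le (by linarith)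
    linarith

theorem plus_num {q Y d k T : ℤ} (hq : 3 ≤ q) (hY : q ^ 2 ≤ Y) (hk : 0 ≤ k)
    (hm : d * ((q ^ 2 - 1) * ((q * Y ^ 2) * (q - 1 + k) + (q - 1) - q * k)) =
      ((q * Y - 1) * (Y + 1)) * ((q ^ 2 * Y - 1) * (q * Y + 1)) * (q - 1 + k))
    (hT : (q ^ 2 - 1) * T = q * ((q ^ 2 * Y - 1) * (Y + 1))) : T ≤ d := by
  by_contra hcon
  push Not at hcon
  obtain ⟨D, hD⟩ : ∃ D, D = T - d := ⟨_, rfl⟩
  have hD1 : 1 ≤ D := by omega
  have hd : d = T - D := by omega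
  set Br := (q * Y ^ 2) * (q - 1 + k) + (q - 1) - q * k with hBr
  have hq2 : 9 ≤ q ^ 2 := by nlinarith
  have hY9 : 9 ≤ Y := by linarith
  have hY2 : 1 < Y ^ 2 := by nlinarith
  have hBrpos : 0 < Br := by
    rw [hBr]
    have e : q * Y ^ 2 * (q - 1 + k) + (q - 1) - q * k = q * Y ^ 2 * (q - 1) + (q - 1) + q * k * (Y ^ 2 - 1) := by ring
    rw [e]
    have := mul_nonneg (mul_nonneg (by linarith : (0:ℤ) ≤ q) hk) (by linarith : (0:ℤ) ≤ Y ^ 2 - 1)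
    have h2 := mul_pos (mul_pos (by linarith : (0:ℤ) < q) (by linarith : (0:ℤ) < Y ^ 2)) (by linarith : (0:ℤ) < q - 1)
    linarith
  have key : (q ^ 2 * Y - 1) * (Y + 1) * (1 - k) = D * Br := by
    have h1 : q ^ 2 - 1 ≠ 0 := by linarith
    apply mul_left_cancel₀ h1
    rw [hd] at hm
    linear_combination hm - Br * hT - q * ((q ^ 2 * Y - 1) * (Y + 1)) * hBr
  have hR : 0 < D * Br := mul_pos (by linarith) hBrpos
  have hM : 0 < (q ^ 2 * Y - 1) * (Y + 1) := by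
    apply mul_pos
    · nlinarith
    · linarith
  rcases (show k = 0 ∨ 1 ≤ k by omega) with h | h
  · subst h
    have hB0 : Br = (q - 1) * (q * Y ^ 2 + 1) := by rw [hBr]; ring
    rw [hB0] at key
    have hp : 0 < (q - 1) * (q * Y ^ 2 + 1) := by
      apply mul_pos
      · linarith
      · nlinarith
    rcases (show D = 1 ∨ 2 ≤ D by omega) with h | h
    · rw [h] at key
      have e1 : (q ^ 2 * Y - 1) * (Y + 1) * (1 - 0) - 1 * ((q - 1) * (q * Y ^ 2 + 1)) =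
        Y * (q ^ 2 - 1) + (q * Y ^ 2 - q) := by ring
      have e2 : 0 < Y * (q ^ 2 - 1) := mul_pos (by linarith) (by linarith)
      have e3 : 0 ≤ q * Y ^ 2 - q := by nlinarith
      linarith
    · have h3 : 2 * ((q - 1) * (q * Y ^ 2 + 1)) ≤ D * ((q - 1) * (q * Y ^ 2 + 1)) := mul_le_mul_of_nonneg_right h hp.le
      have e1 : 2 * ((q - 1) * (q * Y ^ 2 + 1)) - (q ^ 2 * Y - 1) * (Y + 1) * (1 - 0) =
        q * Y * ((q - 2) * Y - q) + Y + 2 * q - 1 := by ring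
      have e2 : 0 ≤ (q - 2) * Y - q := by nlinarith
      have e3 : 0 ≤ q * Y * ((q - 2) * Y - q) := mul_nonneg (mul_nonneg (by linarith) (by linarith)) e2
      linarith
  · have : (q ^ 2 * Y - 1) * (Y + 1) * (1 - k) ≤ 0 := mul_nonpos_of_nonneg_of_nonpos hM.le (by linarith)
    linarith

theorem odd_b1 {q X d T : ℤ} (hq : 3 ≤ q) (hX : q ^ 2 < X) (h : 2 * (q ^ 2 - 1) * X ≤ q ^ 2 * d)
    (hT : (q ^ 2 - 1) * T = q ^ 2 * X - 1) : T ≤ d := by
  by_contra hcon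
  push Not at hcon
  have hq9 : 9 ≤ q ^ 2 := by nlinarith
  set t := q ^ 2 with ht
  have e2 : (t - 1) * d < t * X := by
    have := mul_lt_mul_of_pos_left hcon (by linarith : 0 < t - 1)
    rw [hT] at this
    linarith
  have e3 := mul_le_mul_of_nonneg_left h (by linarith : 0 ≤ t - 1)
  have e4 := mul_lt_mul_of_pos_left e2 (by linarith : 0 < t)
  have hXpos : 0 < X := by linarith
  have e5 : (t ^ 2 - 4 * t + 2) * X < 0 := by linarith
  have e6 : 0 < t ^ 2 - 4 * t + 2 := by nlinarith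
  have := mul_pos e6 hXpos
  linarith

theorem odd_b2 {q X d T : ℤ} (hq : 3 ≤ q) (hX : q ^ 2 < X) (h : 2 * X ≤ d + 2)
    (hT : (q ^ 2 - 1) * T = q ^ 2 * X - 1) : T ≤ d := by
  have hq9 : 9 ≤ q ^ 2 := by nlinarith
  set t := q ^ 2 with ht
  have e1 : (t - 1) * T ≤ (t - 1) * d := by
    rw [hT]
    have h1 := mul_le_mul_of_nonneg_left h (by linarith : 0 ≤ t - 1)
    have h2 : 0 ≤ (t - 2) * (X - t) := mul_nonneg (by linarith) (by linarith)
    have h3 : 0 ≤ (t - 9) * (t - 2) := mul_nonneg (by linarith) (by linarith)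
    nlinarith
  exact le_of_mul_le_mul_left e1 (by linarith)

theorem plus_b1 {q Y d T : ℤ} (hq : 3 ≤ q) (hY : q ^ 2 ≤ Y) (h : 2 * (q ^ 2 - 1) * (q * Y ^ 2) ≤ q ^ 2 * d)
    (hT : (q ^ 2 - 1) * T = q * ((q ^ 2 * Y - 1) * (Y + 1))) : T ≤ d := by
  have hq9 : 9 ≤ q ^ 2 := by nlinarith
  have hqp : 0 < q := by linarith
  have e1' : 2 * (q ^ 2 - 1) * Y ^ 2 ≤ q * d := by
    apply le_of_mul_le_mul_left _ hqp
    calc q * (2 * (q ^ 2 - 1) * Y ^ 2) = 2 * (q ^ 2 - 1) * (q * Y ^ 2) := by ring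
      _ ≤ q ^ 2 * d := h
      _ = _ := by ring
  have e2 : (q * (q ^ 2 - 1)) * T ≤ (q * (q ^ 2 - 1)) * d := by
    rw [mul_assoc, hT]
    have h3 := mul_le_mul_of_nonneg_left e1' (by linarith : 0 ≤ q ^ 2 - 1)
    have e3 : (q ^ 2 - 1) * (q * d) = (q * (q ^ 2 - 1)) * d := by ring
    rw [e3] at h3
    refine le_trans ?_ h3
    have e4 : q * (q * ((q ^ 2 * Y - 1) * (Y + 1))) = q ^ 2 * (q ^ 2 * Y ^ 2 + q ^ 2 * Y - Y - 1) := by ring
    rw [e4]
    generalize q ^ 2 = t at *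
    have hY2 : t * Y ≤ Y ^ 2 := by
      have := mul_le_mul_of_nonneg_right hY (by linarith : 0 ≤ Y)
      linarith [sq Y]
    have hYY : 0 ≤ Y ^ 2 := by positivity
    have e5 : t * (t * Y ^ 2 + t * Y - Y - 1) ≤ t * (t * Y ^ 2 + Y ^ 2) := by
      apply mul_le_mul_of_nonneg_left _ (by linarith)
      linarith
    refine le_trans e5 ?_
    have e6 : (t - 1) * (2 * (t - 1) * Y ^ 2) - t * (t * Y ^ 2 + Y ^ 2) = (t ^ 2 - 5 * t + 2) * Y ^ 2 := by ring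
    have e7 : 0 ≤ t ^ 2 - 5 * t + 2 := by nlinarith
    have e8 := mul_nonneg e7 hYY
    linarith
  exact le_of_mul_le_mul_left e2 (mul_pos (by linarith) (by linarith))

theorem plus_b2 {q Y d T : ℤ} (hq : 3 ≤ q) (hY : q ^ 2 ≤ Y) (h : 2 * ((q * Y - 1) * (Y + 1) + 1) ≤ d + 2)
    (hT : (q ^ 2 - 1) * T = q * ((q ^ 2 * Y - 1) * (Y + 1))) : T ≤ d := by
  have hq9 : 9 ≤ q ^ 2 := by nlinarith
  have e1 : (q ^ 2 - 1) * T ≤ (q ^ 2 - 1) * d := by
    rw [hT]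
    have h3 : 2 * ((q * Y - 1) * (Y + 1)) ≤ d := by linarith
    have h4 := mul_le_mul_of_nonneg_left h3 (by linarith : 0 ≤ q ^ 2 - 1)
    refine le_trans ?_ h4
    have e5 : (q ^ 2 - 1) * (2 * ((q * Y - 1) * (Y + 1))) - q * ((q ^ 2 * Y - 1) * (Y + 1)) =
      (Y + 1) * (Y * (q * (q ^ 2 - 2)) - 2 * q ^ 2 + 2 + q) := by ring
    have e6 : 2 * q ^ 2 ≤ Y * (q * (q ^ 2 - 2)) := by
      have h5 : 2 ≤ q * (q ^ 2 - 2) := by
        have : 3 * 7 ≤ q * (q ^ 2 - 2) := mul_le_mul hq (by linarith) (by norm_num) (by linarith)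
        linarith
      have h6 : q ^ 2 * 2 ≤ Y * (q * (q ^ 2 - 2)) := mul_le_mul hY h5 (by norm_num) (by linarith)
      linarith
    have e7 := mul_nonneg (by linarith : 0 ≤ Y + 1) (by linarith : 0 ≤ Y * (q * (q ^ 2 - 2)) - 2 * q ^ 2 + 2 + q)
    linarith
  exact le_of_mul_le_mul_left e1 (by linarith)

section bound
variable {F V : Type*} [Field F] [Finite F] [AddCommGroup V] [Module F V] [FiniteDimensional F V] {Q : QuadraticForm F V}
  {E : Type*} [AddCommGroup E] [Module ℂ E] {ρ : Representation ℂ (EG Q) E} [FiniteDimensional ℂ E]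

theorem masterZ [ρ.IsIrreducible] (B : Big Q) {ψ : AddChar F ℂ} (hψ : ψ ≠ 1) (h1 : One Q ρ ψ) {A n : ℕ} (N : Num Q A n) :
    ∃ k : ℕ, (finrank ℂ E : ℤ) * (((Nat.card F : ℤ) ^ 2 - 1) * ((Nat.card F : ℤ) ^ 3 * A * (Nat.card F - 1 + k) + (Nat.card F - 1) -
      Nat.card F * k)) = ((Nat.card F : ℤ) * n + (Nat.card F - 1) * ((Nat.card F : ℤ) ^ 2 * A) - 1) *
        ((Nat.card F : ℤ) ^ 2 * n + ((Nat.card F : ℤ) ^ 2 - 1) * ((Nat.card F : ℤ) ^ 3 * A) - 1) * (Nat.card F - 1 + k) := by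
  obtain ⟨k, hk⟩ := master B hψ h1 N
  exact ⟨k, by exact_mod_cast hk⟩

theorem bound_odd (B : Big Q) (hirr : ρ.IsIrreducible) (h2 : 2 ≤ finrank ℂ E) {m : ℕ} (hm : 3 ≤ m) (hq : 3 ≤ Nat.card F)
    (hV : Nat.card V = Nat.card F ^ (2 * m + 1)) (hn : nn Q ⊤ 0 = Nat.card F ^ (2 * m)) {T : ℕ}
    (hT : (Nat.card F ^ 2 - 1) * T = Nat.card F ^ (2 * m) - 1) : T ≤ finrank ℂ E := by
  obtain ⟨ψ, hψ⟩ := CfsgLib.WtSp.exists_psi F
  obtain ⟨l, rfl⟩ := Nat.exists_eq_add_of_le hm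
  set q := Nat.card F with hqdef
  have hq0 : 0 < q := by omega
  have hN : Num Q (q ^ (2 * l + 1)) (q ^ (2 * l + 2)) := by
    refine ⟨?_, ?_⟩
    · rw [hV, ← hqdef, ← pow_add]
      congr 1
      ring
    · rw [hn, ← hqdef]
      have h3 : 1 ≤ q ^ 2 := Nat.one_le_pow _ _ hq0
      have e1 : q ^ 3 * q ^ (2 * l + 1) = q ^ (2 * l + 4) := by rw [← pow_add]; congr 1; ring
      have e2 : q ^ 2 * q ^ (2 * l + 2) = q ^ (2 * l + 4) := by rw [← pow_add]; congr 1; ring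
      have e3 : q ^ (2 * (3 + l)) = q ^ 2 * q ^ (2 * l + 4) := by rw [← pow_add]; congr 1; ring
      rw [e1, e2, e3, Nat.sub_mul, one_mul]
      have : q ^ (2 * l + 4) ≤ q ^ 2 * q ^ (2 * l + 4) := Nat.le_mul_of_pos_left _ h3
      omega
  have hqz : (3 : ℤ) ≤ q := by exact_mod_cast hq
  obtain ⟨X, hX⟩ : ∃ X : ℤ, X = (q : ℤ) ^ (2 * l + 4) := ⟨_, rfl⟩
  have hX2 : (q : ℤ) ^ 2 < X := by
    rw [hX]
    exact pow_lt_pow_right₀ (by linarith) (by omega)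
  have hTz : ((q : ℤ) ^ 2 - 1) * T = (q : ℤ) ^ 2 * X - 1 := by
    have h3 : 1 ≤ q ^ 2 := Nat.one_le_pow _ _ hq0
    have h4 : 1 ≤ q ^ (2 * (3 + l)) := Nat.one_le_pow _ _ hq0
    have := congrArg (fun t : ℕ => (t : ℤ)) hT
    push_cast [Nat.cast_sub h3, Nat.cast_sub h4] at this
    rw [this, hX, ← pow_add]
    congr 2
    ring
  have hA1 : (q : ℤ) ^ 3 * ((q ^ (2 * l + 1) : ℕ) : ℤ) = X := by
    rw [hX]; push_cast; rw [← pow_add]; congr 1; ring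
  have hA2 : (q : ℤ) ^ 2 * ((q ^ (2 * l + 1) : ℕ) : ℤ) * q = X := by
    rw [hX]; push_cast; ring
  have hn1 : (q : ℤ) ^ 2 * ((q ^ (2 * l + 2) : ℕ) : ℤ) = X := by
    rw [hX]; push_cast; rw [← pow_add]; congr 1; ring
  have hs1 : (q : ℤ) * ((q ^ (2 * l + 2) : ℕ) : ℤ) + (q - 1) * ((q : ℤ) ^ 2 * ((q ^ (2 * l + 1) : ℕ) : ℤ)) = X := by
    rw [hX]; push_cast; ring
  rcases one_or hirr h2 B hψ hN with h1 | h1 | h1
  · obtain ⟨k, hk⟩ := masterZ (ρ := ρ) B hψ h1 hN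
    have : (T : ℤ) ≤ (finrank ℂ E : ℤ) := by
      refine odd_num hqz hX2 (Nat.cast_nonneg k) ?_ hTz
      rw [← hqdef, hA1, hn1, hs1] at hk
      rw [hk]
      ring
    exact_mod_cast this
  · have h3 : 1 ≤ q ^ 2 := Nat.one_le_pow _ _ hq0
    rw [← hqdef] at h1
    have h1z : 2 * ((q : ℤ) * (((q : ℤ) ^ 2 - 1) * ((q ^ (2 * l + 1) : ℕ) : ℤ))) ≤ (finrank ℂ E : ℤ) := by
      have := h1
      zify [h3] at this
      push_cast at this ⊢
      exact this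
    have : (T : ℤ) ≤ (finrank ℂ E : ℤ) := by
      refine odd_b1 hqz hX2 ?_ hTz
      have := mul_le_mul_of_nonneg_left h1z (by positivity : (0 : ℤ) ≤ (q : ℤ) ^ 2)
      have e : (q : ℤ) ^ 2 * (2 * ((q : ℤ) * (((q : ℤ) ^ 2 - 1) * ((q ^ (2 * l + 1) : ℕ) : ℤ)))) = 2 * ((q : ℤ) ^ 2 - 1) * X := by
        rw [← hA1]; ring
      rw [e] at this
      exact this
    exact_mod_cast this
  · have : (T : ℤ) ≤ (finrank ℂ E : ℤ) := by
      refine odd_b2 hqz hX2 ?_ hTz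
      rw [← hs1]
      have := h1
      rw [← hqdef] at this
      zify [hq0] at this
      push_cast at this ⊢
      exact this
    exact_mod_cast this

theorem bound_plus (B : Big Q) (hirr : ρ.IsIrreducible) (h2 : 2 ≤ finrank ℂ E) {m : ℕ} (hm : 4 ≤ m) (hq : 3 ≤ Nat.card F)
    (hV : Nat.card V = Nat.card F ^ (2 * m)) (hn : nn Q ⊤ 0 = (Nat.card F ^ m - 1) * (Nat.card F ^ (m - 1) + 1) + 1) {T : ℕ}
    (hT : (Nat.card F ^ 2 - 1) * T = (Nat.card F ^ m - 1) * (Nat.card F ^ (m - 1) + Nat.card F)) : T ≤ finrank ℂ E := by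
  obtain ⟨ψ, hψ⟩ := CfsgLib.WtSp.exists_psi F
  obtain ⟨l, rfl⟩ := Nat.exists_eq_add_of_le hm
  set q := Nat.card F with hqdef
  have hq0 : 0 < q := by omega
  have hsub : 4 + l - 1 = l + 3 := by omega
  rw [hsub] at hn hT
  -- Y = q^(l+2)
  have h2pos : 1 ≤ q ^ 2 := Nat.one_le_pow _ _ hq0
  have hY1 : 1 ≤ q ^ (l + 2) := Nat.one_le_pow _ _ hq0
  have hYm : 1 ≤ q ^ (4 + l) := Nat.one_le_pow _ _ hq0
  have hN : Num Q (q ^ (2 * l + 2)) ((q ^ (l + 2) - 1) * (q ^ (l + 1) + 1) + 1) := by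
    refine ⟨?_, ?_⟩
    · rw [hV, ← hqdef, ← pow_add]
      congr 1
      ring
    · rw [hn, ← hqdef]
      zify [h2pos, hY1, hYm]
      push_cast [h2pos, hY1, hYm]
      ring
  have hqz : (3 : ℤ) ≤ q := by exact_mod_cast hq
  obtain ⟨Y, hY⟩ : ∃ Y : ℤ, Y = (q : ℤ) ^ (l + 2) := ⟨_, rfl⟩
  have hYq : (q : ℤ) ^ 2 ≤ Y := by
    rw [hY]
    exact pow_le_pow_right₀ (by linarith) (by omega)
  have hTz : ((q : ℤ) ^ 2 - 1) * T = q * (((q : ℤ) ^ 2 * Y - 1) * (Y + 1)) := by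
    have := hT
    zify [h2pos, hYm] at this
    rw [this, hY]
    ring
  have hA1 : (q : ℤ) ^ 3 * ((q ^ (2 * l + 2) : ℕ) : ℤ) = q * Y ^ 2 := by
    rw [hY]; push_cast; ring
  have hs1 : (q : ℤ) * (((q ^ (l + 2) - 1) * (q ^ (l + 1) + 1) + 1 : ℕ) : ℤ) + (q - 1) * ((q : ℤ) ^ 2 * ((q ^ (2 * l + 2) : ℕ) : ℤ)) =
      (q * Y - 1) * (Y + 1) + 1 := by
    rw [hY]; push_cast [hY1]; ring
  have hs2 : (q : ℤ) ^ 2 * (((q ^ (l + 2) - 1) * (q ^ (l + 1) + 1) + 1 : ℕ) : ℤ) + ((q : ℤ) ^ 2 - 1) * (q * Y ^ 2) =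
      (q ^ 2 * Y - 1) * (q * Y + 1) + 1 := by
    rw [hY]; push_cast [hY1]; ring
  rcases one_or hirr h2 B hψ hN with h1 | h1 | h1
  · obtain ⟨k, hk⟩ := masterZ (ρ := ρ) B hψ h1 hN
    have : (T : ℤ) ≤ (finrank ℂ E : ℤ) := by
      refine plus_num hqz hYq (Nat.cast_nonneg k) ?_ hTz
      rw [← hqdef, hs1, hA1, hs2] at hk
      rw [hk]
      ring
    exact_mod_cast this
  · rw [← hqdef] at h1
    have h1z : 2 * ((q : ℤ) * (((q : ℤ) ^ 2 - 1) * ((q ^ (2 * l + 2) : ℕ) : ℤ))) ≤ (finrank ℂ E : ℤ) := by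
      have := h1
      zify [h2pos] at this
      push_cast at this ⊢
      exact this
    have : (T : ℤ) ≤ (finrank ℂ E : ℤ) := by
      refine plus_b1 hqz hYq ?_ hTz
      have := mul_le_mul_of_nonneg_left h1z (by positivity : (0 : ℤ) ≤ (q : ℤ) ^ 2)
      have e : (q : ℤ) ^ 2 * (2 * ((q : ℤ) * (((q : ℤ) ^ 2 - 1) * ((q ^ (2 * l + 2) : ℕ) : ℤ)))) = 2 * ((q : ℤ) ^ 2 - 1) * (q * Y ^ 2) := by
        rw [← hA1]; ring
      rw [e] at this
      exact this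
    exact_mod_cast this
  · have : (T : ℤ) ≤ (finrank ℂ E : ℤ) := by
      refine plus_b2 hqz hYq ?_ hTz
      rw [← hs1]
      have := h1
      rw [← hqdef] at this
      zify [hq0] at this
      push_cast at this ⊢
      exact this
    exact_mod_cast this

end bound

end CfsgLib.Ow
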