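import Cfsg.Agent.LibOw15

set_option autoImplicit false
set_option linter.unusedSectionVars false

/-! The standard forms (helper26). -/

namespace CfsgLib.Ow

open Cfsg.Agent.H22 Module

theorem exists_sq_ne {F : Type*} [Field F] [Finite F] (h3 : 3 < Nat.card F) : ∃ a : F, a ≠ 0 ∧ a ^ 2 ≠ 1 := by
  obtain ⟨g, hg⟩ := IsCyclic.exists_generator (α := Fˣ)
  have h1 := orderOf_eq_card_of_forall_mem_zpowers hg
  have h2 : Nat.card Fˣ = Nat.card F - 1 := Nat.card_units F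
  refine ⟨g, g.ne_zero, ?_⟩
  intro hc
  have h4 : g ^ 2 = 1 := by
    apply Units.ext
    rw [Units.val_pow_eq_pow_val, hc, Units.val_one]
  have h5 : orderOf g ≤ 2 := orderOf_le_of_pow_eq_one two_pos h4
  omega

section
variable {F : Type*} [Field F]

theorem op_qOdd {m : ℕ} {i j : Fin m} (hij : i ≠ j) : OP (qOdd m F) (Pi.single (.inr (.inl i)) 1) (Pi.single (.inr (.inr i)) 1)
    (Pi.single (.inr (.inl j)) 1) (Pi.single (.inr (.inr j)) 1) where
  h1 := by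
    refine ⟨?_, ?_, ?_⟩
    · rw [coe_qOdd]; unfold Cfsg.quadFormOdd; simp [Pi.single_apply]
    · rw [coe_qOdd]; unfold Cfsg.quadFormOdd; simp [Pi.single_apply]
    · rw [polar_qOdd]; simp [Pi.single_apply]
  h2 := by
    refine ⟨?_, ?_, ?_⟩
    · rw [coe_qOdd]; unfold Cfsg.quadFormOdd; simp [Pi.single_apply]
    · rw [coe_qOdd]; unfold Cfsg.quadFormOdd; simp [Pi.single_apply]
    · rw [polar_qOdd]; simp [Pi.single_apply]
  xz := by rw [polar_qOdd]; simp [Pi.single_apply]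
  xz' := by rw [polar_qOdd]; simp [Pi.single_apply, hij, hij.symm]
  x'z := by rw [polar_qOdd]; simp [Pi.single_apply, hij, hij.symm]
  x'z' := by rw [polar_qOdd]; simp [Pi.single_apply]

theorem hs_of_op {V : Type*} [AddCommGroup V] [Module F V] {Q : QuadraticForm F V} {x x' z z' u : V} (h : OP Q x x' z z')
    (h1 : QuadraticMap.polar Q u x = 0) (h2 : QuadraticMap.polar Q u x' = 0) (h3 : QuadraticMap.polar Q u z = 0)
    (h4 : QuadraticMap.polar Q u z' = 0) (hu : Q u ≠ 0) : HS Q x x' z z' u :=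
  ⟨h.h1, h.h2, h.xz, h.xz', h.x'z, h.x'z', h1, h2, h3, h4, hu⟩

theorem big_qOdd [Finite F] {m : ℕ} (hm : 3 ≤ m) (h2 : (2 : F) ≠ 0) (hF : ∃ a : F, a ≠ 0 ∧ a ^ 2 ≠ 1) : Big (qOdd m F) := by
  have h01 : (⟨0, by omega⟩ : Fin m) ≠ ⟨1, by omega⟩ := by simp
  have h20 : (⟨2, by omega⟩ : Fin m) ≠ ⟨0, by omega⟩ := by simp
  have h21 : (⟨2, by omega⟩ : Fin m) ≠ ⟨1, by omega⟩ := by simp
  have hu : ∀ k : Fin m ⊕ Fin m, QuadraticMap.polar (qOdd m F) (Pi.single (.inl ()) 1) (Pi.single (.inr k) 1) = 0 := by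
    intro k
    rw [polar_qOdd]; simp [Pi.single_apply]
  have hQu : qOdd m F (Pi.single (.inl ()) 1) ≠ 0 := by rw [coe_qOdd]; unfold Cfsg.quadFormOdd; simp [Pi.single_apply]
  exact ⟨nondeg_qOdd m h2, hF, _, _, _, _, _, _, Pi.single (.inl ()) 1, op_qOdd h01, op_qOdd h20, op_qOdd h21,
    hs_of_op (op_qOdd h20) (hu _) (hu _) (hu _) (hu _) hQu, hs_of_op (op_qOdd h01) (hu _) (hu _) (hu _) (hu _) hQu⟩

theorem op_qPlus {m : ℕ} {i j : Fin m} (hij : i ≠ j) : OP (qPlus m F) (Pi.single (.inl i) 1) (Pi.single (.inr i) 1)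
    (Pi.single (.inl j) 1) (Pi.single (.inr j) 1) where
  h1 := by
    refine ⟨?_, ?_, ?_⟩
    · rw [coe_qPlus]; unfold Cfsg.quadFormPlus; simp [Pi.single_apply]
    · rw [coe_qPlus]; unfold Cfsg.quadFormPlus; simp [Pi.single_apply]
    · rw [polar_qPlus]; simp [Pi.single_apply]
  h2 := by
    refine ⟨?_, ?_, ?_⟩
    · rw [coe_qPlus]; unfold Cfsg.quadFormPlus; simp [Pi.single_apply]
    · rw [coe_qPlus]; unfold Cfsg.quadFormPlus; simp [Pi.single_apply]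
    · rw [polar_qPlus]; simp [Pi.single_apply]
  xz := by rw [polar_qPlus]; simp [Pi.single_apply]
  xz' := by rw [polar_qPlus]; simp [Pi.single_apply, hij, hij.symm]
  x'z := by rw [polar_qPlus]; simp [Pi.single_apply, hij, hij.symm]
  x'z' := by rw [polar_qPlus]; simp [Pi.single_apply]

theorem big_qPlus [Finite F] {m : ℕ} (hm : 4 ≤ m) (hF : ∃ a : F, a ≠ 0 ∧ a ^ 2 ≠ 1) : Big (qPlus m F) := by
  have h01 : (⟨0, by omega⟩ : Fin m) ≠ ⟨1, by omega⟩ := by simp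
  have h20 : (⟨2, by omega⟩ : Fin m) ≠ ⟨0, by omega⟩ := by simp
  have h21 : (⟨2, by omega⟩ : Fin m) ≠ ⟨1, by omega⟩ := by simp
  have h3 : ∀ i : Fin m, i.1 < 3 → i ≠ ⟨3, by omega⟩ := by
    intro i hi hc
    rw [hc] at hi
    simp at hi
  have hul : ∀ i : Fin m, i.1 < 3 → QuadraticMap.polar (qPlus m F)
      (Pi.single (.inl ⟨3, by omega⟩) 1 + Pi.single (.inr ⟨3, by omega⟩) 1) (Pi.single (.inl i) 1) = 0 := by
    intro i hi
    have h4 := h3 i hi
    rw [polar_qPlus]; simp [Pi.single_apply, h4, h4.symm]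
  have hur : ∀ i : Fin m, i.1 < 3 → QuadraticMap.polar (qPlus m F)
      (Pi.single (.inl ⟨3, by omega⟩) 1 + Pi.single (.inr ⟨3, by omega⟩) 1) (Pi.single (.inr i) 1) = 0 := by
    intro i hi
    have h4 := h3 i hi
    rw [polar_qPlus]; simp [Pi.single_apply, h4, h4.symm]
  have hQu : qPlus m F (Pi.single (.inl ⟨3, by omega⟩) 1 + Pi.single (.inr ⟨3, by omega⟩) 1) ≠ 0 := by
    rw [coe_qPlus]; unfold Cfsg.quadFormPlus; simp [Pi.single_apply]
  exact ⟨nondeg_qPlus m, hF, _, _, _, _, _, _, _, op_qPlus h01, op_qPlus h20, op_qPlus h21,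
    hs_of_op (op_qPlus h20) (hul _ (by simp)) (hur _ (by simp)) (hul _ (by simp)) (hur _ (by simp)) hQu,
    hs_of_op (op_qPlus h01) (hul _ (by simp)) (hur _ (by simp)) (hul _ (by simp)) (hur _ (by simp)) hQu⟩

theorem nn_eq_cnt {V : Type*} [AddCommGroup V] [Module F V] (Q : QuadraticForm F V) [Finite F] (c : F) : nn Q ⊤ c = cnt Q c := by
  unfold nn cnt
  exact Nat.card_congr ⟨fun v => ⟨v.1, v.2.2⟩, fun v => ⟨v.1, trivial, v.2⟩, fun _ => rfl, fun _ => rfl⟩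

end

end CfsgLib.Ow
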