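import Cfsg.Agent.LibSLw1
import Cfsg.Agent.LibWt5

/-! one dimensional weight spaces of the unipotent radical of a hyperplane stabiliser (helper26) -/
set_option autoImplicit false
set_option linter.unusedSectionVars false

namespace CfsgLib.SLw

open Matrix Module CfsgLib.Wt CfsgLib.WtQ CfsgLib.WtSp

section general

theorem addChar_sum {A κ : Type*} [AddCommMonoid A] (χ : AddChar A ℂ) (s : Finset κ) (f : κ → A) :
    χ (∑ i ∈ s, f i) = ∏ i ∈ s, χ (f i) := by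
  classical
  induction s using Finset.induction_on with
  | empty => rw [Finset.sum_empty, Finset.prod_empty, AddChar.map_zero_eq_one]
  | insert i s hi ih => rw [Finset.sum_insert hi, Finset.prod_insert hi, AddChar.map_add_eq_mul, ih]

variable {G V M : Type*} [Group G] [AddCommGroup V] [Module ℂ V] [AddCommGroup M]

theorem stab_of (ρ : Representation ℂ G V) (j : Multiplicative M →* G) (χ : AddChar M ℂ) (g : G)
    (h : ∀ m, ∃ m', j (Multiplicative.ofAdd m) * g = g * j (Multiplicative.ofAdd m') ∧ χ m' = χ m) {v : V}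
    (hv : v ∈ wt ρ j χ) : ρ g v ∈ wt ρ j χ := by
  intro m
  obtain ⟨m', h1, h2⟩ := h m
  rw [← Module.End.mul_apply, ← map_mul, h1, map_mul, Module.End.mul_apply, hv m', map_smul, h2]

theorem comm_trivial (ρ : Representation ℂ G V) (j : Multiplicative M →* G) (χ : AddChar M ℂ)
    (h1 : finrank ℂ (wt ρ j χ) = 1) {g₁ g₂ t : G} (ht : g₁ * g₂ = t * (g₂ * g₁))
    (hg₁ : ∀ v ∈ wt ρ j χ, ρ g₁ v ∈ wt ρ j χ) (hg₂ : ∀ v ∈ wt ρ j χ, ρ g₂ v ∈ wt ρ j χ) {v : V}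
    (hv : v ∈ wt ρ j χ) : ρ t v = v := by
  by_cases hv0 : v = 0
  · rw [hv0, map_zero]
  have hgen : ∀ w ∈ wt ρ j χ, ∃ c : ℂ, w = c • v := by
    intro w hw
    obtain ⟨v₀, hv₀, hall⟩ := finrank_eq_one_iff'.mp h1
    obtain ⟨c, hc⟩ := hall ⟨v, hv⟩
    obtain ⟨d, hd⟩ := hall ⟨w, hw⟩
    have hc' : c • (v₀ : V) = v := congrArg Subtype.val hc
    have hd' : d • (v₀ : V) = w := congrArg Subtype.val hd
    have hc0 : c ≠ 0 := by
      rintro rfl
      rw [zero_smul] at hc'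
      exact hv0 hc'.symm
    exact ⟨d * c⁻¹, by rw [← hc', smul_smul, inv_mul_cancel_right₀ hc0, hd']⟩
  obtain ⟨c₁, hc₁⟩ := hgen _ (hg₁ v hv)
  obtain ⟨c₂, hc₂⟩ := hgen _ (hg₂ v hv)
  have e1 : ρ (g₁ * g₂) v = (c₁ * c₂) • v := by
    rw [map_mul, Module.End.mul_apply, hc₂, map_smul, hc₁, smul_smul, mul_comm]
  have e2 : ρ (g₂ * g₁) v = (c₁ * c₂) • v := by
    rw [map_mul, Module.End.mul_apply, hc₁, map_smul, hc₂, smul_smul]
  rw [ht, map_mul, Module.End.mul_apply, e2, map_smul] at e1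
  have hc : c₁ * c₂ ≠ 0 := by
    intro h0
    rw [h0, zero_smul] at e2
    have := congrArg (ρ (g₂ * g₁)⁻¹) e2
    rw [rho_cancel', map_zero] at this
    exact hv0 this
  exact smul_right_injective _ hc e1

end general

variable {ι : Type} [Fintype ι] [DecidableEq ι] {F : Type*} [Field F] [Finite F] {ψ : AddChar F ℂ}

/-- characters of a hyperplane are given by functionals -/
theorem exists_row (hψ : ψ ≠ 1) {f : ι → F} (hf : f ≠ 0) (χ : AddChar (K f) ℂ) :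
    ∃ r : ι → F, ∀ x : K f, χ x = ψ (r ⬝ᵥ (x : ι → F)) := by
  obtain ⟨v, -, hv⟩ := exists_vec (⊥ : Submodule F (ι → F)) (b := f) (by rwa [Submodule.mem_bot])
  have hmem : ∀ x : ι → F, x - (f ⬝ᵥ x) • v ∈ K f := by
    intro x
    rw [mem_K, dotProduct_sub, dotProduct_smul, hv, smul_eq_mul, mul_one, sub_self]
  let χ' : AddChar (ι → F) ℂ := ⟨fun x => χ ⟨x - (f ⬝ᵥ x) • v, hmem x⟩, by
    have : (⟨0 - (f ⬝ᵥ 0) • v, hmem 0⟩ : K f) = 0 := by
      apply Subtype.ext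
      change (0 : ι → F) - (f ⬝ᵥ 0) • v = 0
      rw [dotProduct_zero, zero_smul, sub_zero]
    rw [this, AddChar.map_zero_eq_one], fun x y => by
    rw [← AddChar.map_add_eq_mul]
    congr 1
    apply Subtype.ext
    change x + y - (f ⬝ᵥ (x + y)) • v = (x - (f ⬝ᵥ x) • v) + (y - (f ⬝ᵥ y) • v)
    rw [dotProduct_add, add_smul]; abel⟩
  have h1 : ∀ i : ι, ∃ a : F, ∀ c, χ' (Pi.single i c) = ψ (a * c) := by
    intro i
    exact psi_surj hψ ⟨fun c => χ' (Pi.single i c), by rw [Pi.single_zero, AddChar.map_zero_eq_one], fun c d => by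
      rw [Pi.single_add, AddChar.map_add_eq_mul]⟩
  choose r hr using h1
  refine ⟨r, fun x => ?_⟩
  have h2 : χ' (x : ι → F) = ψ (r ⬝ᵥ (x : ι → F)) := by
    rw [dotProduct, addChar_sum]
    conv_lhs => rw [show (x : ι → F) = ∑ i, Pi.single i ((x : ι → F) i) from (Finset.univ_sum_single _).symm]
    rw [addChar_sum]
    exact Finset.prod_congr rfl fun i _ => hr i _
  rw [← h2]
  change χ x = χ ⟨_, _⟩
  congr 1
  apply Subtype.ext
  change (x : ι → F) = (x : ι → F) - (f ⬝ᵥ (x : ι → F)) • v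
  rw [show f ⬝ᵥ (x : ι → F) = 0 from x.2, zero_smul, sub_zero]

/-- the exceptional pairs -/
def Good (ι : Type) [Fintype ι] (F : Type*) : Prop :=
  5 ≤ Fintype.card ι ∨ (Fintype.card ι = 4 ∧ 3 < Nat.card F) ∨ (Fintype.card ι = 3 ∧ Nat.card F ≠ 2 ∧ Nat.card F ≠ 4)

variable {V : Type*} [AddCommGroup V] [Module ℂ V] (ρ : Representation ℂ (SpecialLinearGroup ι F) V)

/-- stabilisers of weights -/
theorem stab_row {f r : ι → F} {χ : AddChar (K f) ℂ} (hr : ∀ x : K f, χ x = ψ (r ⬝ᵥ (x : ι → F)))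
    (g : SpecialLinearGroup ι F) (c : F) (hg : f ᵥ* (g : Matrix ι ι F) = c • f)
    (hg2 : r ᵥ* ((g⁻¹ : SpecialLinearGroup ι F) : Matrix ι ι F) = c⁻¹ • r) (hc : c ≠ 0) {v : V}
    (hv : v ∈ wt ρ (jf f) χ) : ρ g v ∈ wt ρ (jf f) χ := by
  have hx : ∀ x : K f, f ⬝ᵥ (c • (((g⁻¹ : SpecialLinearGroup ι F) : Matrix ι ι F) *ᵥ (x : ι → F))) = 0 := by
    intro x
    have h1 := dot_conj g⁻¹ (x : ι → F) f
    rw [inv_inv, hg, smul_dotProduct] at h1
    rw [dotProduct_smul, ← smul_dotProduct, smul_dotProduct, h1]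
    exact x.2
  refine stab_of ρ (jf f) χ g (fun x => ⟨⟨c • (((g⁻¹ : SpecialLinearGroup ι F) : Matrix ι ι F) *ᵥ (x : ι → F)), hx x⟩, ?_, ?_⟩) hv
  · rw [jf_apply, jf_apply, ← inv_mul_eq_iff_eq_mul, ← mul_assoc]
    rw [tv_conj' g (x : ι → F) f x.2]
    apply tv_congr
    rw [hg, vecMulVec_smul, smul_vecMulVec]
  · rw [hr, hr]
    congr 1
    change r ⬝ᵥ (c • (((g⁻¹ : SpecialLinearGroup ι F) : Matrix ι ι F) *ᵥ (x : ι → F))) = _
    rw [dotProduct_smul, dotProduct_mulVec, hg2, smul_dotProduct, smul_smul, mul_inv_cancel₀ hc, one_smul]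

theorem tv_inv (x f : ι → F) (h : f ⬝ᵥ x = 0) :
    (tv x f h)⁻¹ = tv (-x) f (by rw [dotProduct_neg, h, neg_zero]) := by
  rw [inv_eq_iff_mul_eq_one]
  apply Subtype.ext
  rw [Matrix.SpecialLinearGroup.coe_mul, tv_val, tv_val, Matrix.mul_add, Matrix.mul_one, Matrix.add_mul, Matrix.one_mul,
    vecMulVec_mul_vecMulVec, dotProduct_neg, h, neg_zero, zero_smul, vecMulVec_zero, add_zero, neg_vecMulVec,
    Matrix.SpecialLinearGroup.coe_one]
  abel

theorem stab_tv {f r : ι → F} {χ : AddChar (K f) ℂ} (hr : ∀ x : K f, χ x = ψ (r ⬝ᵥ (x : ι → F)))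
    (a b : ι → F) (hab : b ⬝ᵥ a = 0) (hfa : f ⬝ᵥ a = 0) (hra : r ⬝ᵥ a = 0) {v : V}
    (hv : v ∈ wt ρ (jf f) χ) : ρ (tv a b hab) v ∈ wt ρ (jf f) χ := by
  refine stab_row ρ hr (tv a b hab) 1 ?_ ?_ one_ne_zero hv
  · rw [vecMul_tv, hfa, zero_smul, add_zero, one_smul]
  · rw [tv_inv, vecMul_tv, dotProduct_neg, hra, neg_zero, zero_smul, add_zero, inv_one, one_smul]

/-- commutator of two transvections -/
theorem tv_comm (a a' b b' : ι → F) (h1 : b' ⬝ᵥ a' = 1) (h2 : b' ⬝ᵥ a = 0) (h3 : b ⬝ᵥ a' = 0) (h4 : b ⬝ᵥ a = 0) :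
    tv a b' h2 * tv a' b h3 = tv a b h4 * (tv a' b h3 * tv a b' h2) := by
  apply Subtype.ext
  rw [Matrix.SpecialLinearGroup.coe_mul, Matrix.SpecialLinearGroup.coe_mul, Matrix.SpecialLinearGroup.coe_mul, tv_val, tv_val,
    tv_val]
  simp only [Matrix.mul_add, Matrix.mul_one, Matrix.add_mul, Matrix.one_mul, vecMulVec_mul_vecMulVec, h1, h3, h4,
    zero_smul, one_smul, vecMulVec_zero, add_zero]
  abel

/-- the first case -/
theorem F2a {f r : ι → F} {χ : AddChar (K f) ℂ} (hr : ∀ x : K f, χ x = ψ (r ⬝ᵥ (x : ι → F)))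
    (h1 : finrank ℂ (wt ρ (jf f) χ) = 1) {a b a' : ι → F} (hab : b ⬝ᵥ a = 0) (hfa : f ⬝ᵥ a = 0) (hra : r ⬝ᵥ a = 0)
    (ha' : a' ∉ Submodule.span F {a}) (hfa' : f ⬝ᵥ a' = 0) (hra' : r ⬝ᵥ a' = 0) (hba' : b ⬝ᵥ a' = 0) {v : V}
    (hv : v ∈ wt ρ (jf f) χ) : ρ (tv a b hab) v = v := by
  obtain ⟨b', hb', hb'2⟩ := exists_vec (Submodule.span F {a}) ha'
  have hb'1 : b' ⬝ᵥ a = 0 := by
    rw [dotProduct_comm]
    exact hb' a (Submodule.mem_span_singleton_self a)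
  rw [dotProduct_comm] at hb'2
  exact comm_trivial ρ (jf f) χ h1 (tv_comm a a' b b' hb'2 hb'1 hba' hab)
    (fun v hv => stab_tv ρ hr a b' hb'1 hfa hra hv) (fun v hv => stab_tv ρ hr a' b hba' hfa' hra' hv) hv

end CfsgLib.SLw
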