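import Cfsg.Agent.LibWt1
import Cfsg.Agent.LibCharBasic

/-! traces of averaging idempotents (helper26) -/
set_option autoImplicit false
set_option linter.unusedSectionVars false

namespace CfsgLib.SLw

open Module CfsgLib.Wt

section general

variable {G V M : Type*} [Group G] [AddCommGroup V] [Module ℂ V] [FiniteDimensional ℂ V] [AddCommGroup M] [Fintype M]
variable (ρ : Representation ℂ G V) (j : Multiplicative M →* G)

theorem trace_pr (χ : AddChar M ℂ) : LinearMap.trace ℂ V (pr ρ j χ) = (finrank ℂ (wt ρ j χ) : ℂ) := by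
  classical
  have h1 : LinearMap.IsProj (wt ρ j χ) (pr ρ j χ) := ⟨fun v => pr_mem ρ j χ v, fun v hv => by
    rw [pr_of_mem ρ j χ χ hv, if_pos rfl]⟩
  exact h1.trace

theorem trace_pr_char (χ : AddChar M ℂ) : LinearMap.trace ℂ V (pr ρ j χ) =
    (Fintype.card M : ℂ)⁻¹ * ∑ m, χ (-m) * ρ.character (j (Multiplicative.ofAdd m)) := by
  rw [pr, map_smul, map_sum, smul_eq_mul]
  congr 1
  refine Finset.sum_congr rfl fun m _ => ?_
  rw [map_smul, smul_eq_mul]; rfl

theorem trace_pr_mul_char {M' : Type*} [AddCommGroup M'] [Fintype M'] (j' : Multiplicative M' →* G) (χ : AddChar M ℂ)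
    (χ' : AddChar M' ℂ) : LinearMap.trace ℂ V (pr ρ j χ * pr ρ j' χ') =
    (Fintype.card M : ℂ)⁻¹ * ((Fintype.card M' : ℂ)⁻¹ * ∑ m, ∑ m', χ (-m) * (χ' (-m') *
      ρ.character (j (Multiplicative.ofAdd m) * j' (Multiplicative.ofAdd m')))) := by
  rw [pr, pr, smul_mul_smul_comm, map_smul, smul_eq_mul, mul_assoc]
  congr 2
  rw [Finset.sum_mul, map_sum]
  refine Finset.sum_congr rfl fun m _ => ?_
  rw [Finset.mul_sum, map_sum]
  refine Finset.sum_congr rfl fun m' _ => ?_
  rw [smul_mul_smul_comm, map_smul, smul_eq_mul, mul_assoc, ← map_mul]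
  rfl

theorem trace_apply (m : M) : ρ.character (j (Multiplicative.ofAdd m)) = ∑ χ : AddChar M ℂ, χ m * (finrank ℂ (wt ρ j χ) : ℂ) := by
  have h : ρ (j (Multiplicative.ofAdd m)) = ∑ χ : AddChar M ℂ, χ m • pr ρ j χ := by
    apply LinearMap.ext
    intro v
    rw [LinearMap.sum_apply]
    conv_lhs => rw [← sum_pr ρ j v, map_sum]
    exact Finset.sum_congr rfl fun χ _ => pr_mem ρ j χ v m
  change LinearMap.trace ℂ V _ = _
  rw [h, map_sum]
  refine Finset.sum_congr rfl fun χ _ => ?_
  rw [map_smul, trace_pr, smul_eq_mul]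

theorem finrank_eq_sum : (finrank ℂ V : ℂ) = ∑ χ : AddChar M ℂ, (finrank ℂ (wt ρ j χ) : ℂ) := by
  have h := trace_apply ρ j 0
  rw [ofAdd_zero, map_one, Representation.char_one] at h
  rw [h]
  refine Finset.sum_congr rfl fun χ _ => ?_
  rw [AddChar.map_zero_eq_one, one_mul]

theorem finrank_of_const {β : ℂ} (h : ∀ m : M, m ≠ 0 → ρ.character (j (Multiplicative.ofAdd m)) = β) {χ : AddChar M ℂ}
    (hχ : χ ≠ 0) : (Fintype.card M : ℂ) * (finrank ℂ (wt ρ j χ) : ℂ) = finrank ℂ V - β := by
  classical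
  have hc : (Fintype.card M : ℂ) ≠ 0 := Nat.cast_ne_zero.mpr Fintype.card_ne_zero
  rw [← trace_pr, trace_pr_char, mul_inv_cancel_left₀ hc]
  have h1 : ∀ m : M, χ (-m) * ρ.character (j (Multiplicative.ofAdd m)) =
      β * (-χ) m + if m = 0 then (finrank ℂ V - β) else 0 := by
    intro m
    by_cases hm : m = 0
    · subst hm
      rw [if_pos rfl, ofAdd_zero, map_one, Representation.char_one, neg_zero, AddChar.map_zero_eq_one, AddChar.map_zero_eq_one]
      ring
    · rw [if_neg hm, h m hm, add_zero, mul_comm, AddChar.neg_apply]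
  rw [Finset.sum_congr rfl fun m _ => h1 m, Finset.sum_add_distrib, ← Finset.mul_sum, AddChar.sum_eq_ite,
    if_neg (fun h => hχ (neg_eq_zero.mp h)), mul_zero, zero_add, Finset.sum_ite_eq' Finset.univ (0 : M),
    if_pos (Finset.mem_univ _)]

theorem char_add (S T : Subrepresentation ρ) (h : IsCompl S.toSubmodule T.toSubmodule) (g : G) :
    ρ.character g = S.toRepresentation.character g + T.toRepresentation.character g := by
  have := congrFun (CfsgLib.CharBasic.character_of_isCompl ρ S T h) g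
  exact this

theorem finrank_wt_add (S T : Subrepresentation ρ) (h : IsCompl S.toSubmodule T.toSubmodule) (χ : AddChar M ℂ) :
    finrank ℂ (wt ρ j χ) = finrank ℂ (wt S.toRepresentation j χ) + finrank ℂ (wt T.toRepresentation j χ) := by
  have h1 : (finrank ℂ (wt ρ j χ) : ℂ) = finrank ℂ (wt S.toRepresentation j χ) + finrank ℂ (wt T.toRepresentation j χ) := by
    rw [← trace_pr, ← trace_pr, ← trace_pr, trace_pr_char, trace_pr_char, trace_pr_char, ← mul_add, ← Finset.sum_add_distrib]
    congr 1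
    refine Finset.sum_congr rfl fun m _ => ?_
    rw [char_add ρ S T h, mul_add]
  exact_mod_cast h1

theorem trace_mul_add {M' : Type*} [AddCommGroup M'] [Fintype M'] (j' : Multiplicative M' →* G) (χ : AddChar M ℂ)
    (χ' : AddChar M' ℂ) (S T : Subrepresentation ρ) (h : IsCompl S.toSubmodule T.toSubmodule) :
    LinearMap.trace ℂ V (pr ρ j χ * pr ρ j' χ') =
    LinearMap.trace ℂ S.toSubmodule (pr S.toRepresentation j χ * pr S.toRepresentation j' χ') +
    LinearMap.trace ℂ T.toSubmodule (pr T.toRepresentation j χ * pr T.toRepresentation j' χ') := by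
  rw [trace_pr_mul_char, trace_pr_mul_char, trace_pr_mul_char, ← mul_add, ← mul_add, ← Finset.sum_add_distrib]
  congr 2
  refine Finset.sum_congr rfl fun m _ => ?_
  rw [← Finset.sum_add_distrib]
  refine Finset.sum_congr rfl fun m' _ => ?_
  rw [char_add ρ S T h]
  ring

end general

/-- counting characters trivial on a subgroup -/
theorem card_trivial {A : Type*} [AddCommGroup A] [Fintype A] (B : AddSubgroup A) [Fintype B]
    [DecidablePred fun χ : AddChar A ℂ => ∀ b ∈ B, χ b = 1] :
    (Finset.univ.filter fun χ : AddChar A ℂ => ∀ b ∈ B, χ b = 1).card * Fintype.card B = Fintype.card A := by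
  classical
  have h1 : ∀ χ : AddChar A ℂ, ∑ b : B, χ (b : A) = if (∀ b ∈ B, χ b = 1) then (Fintype.card B : ℂ) else 0 := by
    intro χ
    have h2 : ∑ b : B, χ (b : A) = ∑ b : B, (χ.compAddMonoidHom B.subtype) b := rfl
    rw [h2, AddChar.sum_eq_ite]
    have h3 : χ.compAddMonoidHom B.subtype = 0 ↔ ∀ b ∈ B, χ b = 1 := by
      constructor
      · intro h b hb
        exact DFunLike.congr_fun h ⟨b, hb⟩
      · intro h
        ext b
        exact h b b.2
    by_cases h : χ.compAddMonoidHom B.subtype = 0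
    · rw [if_pos h, if_pos (h3.mp h)]
    · rw [if_neg h, if_neg (fun h' => h (h3.mpr h'))]
  have h2 : ∑ χ : AddChar A ℂ, ∑ b : B, χ (b : A) = (Fintype.card A : ℂ) := by
    rw [Finset.sum_comm]
    have h3 : ∀ b : B, ∑ χ : AddChar A ℂ, χ (b : A) = if b = 0 then (Fintype.card A : ℂ) else 0 := by
      intro b
      rw [AddChar.sum_apply_eq_ite]
      by_cases h : b = 0
      · rw [if_pos h, if_pos (by rw [h]; rfl)]
      · rw [if_neg h, if_neg (fun h' : (b : A) = 0 => h (Subtype.ext h'))]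
    rw [Finset.sum_congr rfl fun b _ => h3 b, Finset.sum_ite_eq' Finset.univ (0 : B), if_pos (Finset.mem_univ _)]
  rw [Finset.sum_congr rfl fun χ _ => h1 χ, Finset.sum_ite, Finset.sum_const_zero, add_zero, Finset.sum_const, nsmul_eq_mul] at h2
  exact_mod_cast h2

/-- the trace identity -/
theorem lemmaA {Γ V Y : Type*} [Group Γ] [AddCommGroup V] [Module ℂ V] [FiniteDimensional ℂ V] [Fintype Y]
    (σ : Representation ℂ Γ V) (hirr : σ.IsIrreducible) (e : Y → V →ₗ[ℂ] V) (π : Γ → Equiv.Perm Y)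
    (h : ∀ g y, σ g * e y = e (π g y) * σ g) (c τ : ℂ) (par : Y → Y → Prop) [DecidableRel par] (a b : ℕ)
    (hc : ∀ y, LinearMap.trace ℂ V (e y) = c) (hpar : ∀ y y', par y y' → LinearMap.trace ℂ V (e y * e y') = c)
    (hnp : ∀ y y', ¬ par y y' → LinearMap.trace ℂ V (e y * e y') = τ)
    (ha : ∀ y, (Finset.univ.filter fun y' => par y y').card = a) (hab : a + b = Fintype.card Y) (hY : 0 < Fintype.card Y) :
    (Fintype.card Y : ℂ) * c ^ 2 = (finrank ℂ V : ℂ) * (a * c + b * τ) := by
  obtain ⟨z, hz⟩ := CfsgLib.CharBasic.schur_scalar σ (∑ y, e y) (fun g v => by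
    have h1 : σ g * (∑ y, e y) = (∑ y, e y) * σ g := by
      rw [Finset.mul_sum, Finset.sum_mul]
      exact Fintype.sum_equiv (π g) _ _ fun y => h g y
    exact (LinearMap.congr_fun h1 v).symm)
  have hb : ∀ y, (Finset.univ.filter fun y' => ¬ par y y').card = b := by
    intro y
    have := Finset.card_filter_add_card_filter_not (s := (Finset.univ : Finset Y)) (fun y' => par y y')
    rw [ha y, Finset.card_univ] at this
    omega
  have t1 : LinearMap.trace ℂ V (∑ y, e y) = (Fintype.card Y : ℂ) * c := by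
    rw [map_sum, Finset.sum_congr rfl fun y _ => hc y, Finset.sum_const, Finset.card_univ, nsmul_eq_mul]
  have t2 : LinearMap.trace ℂ V ((∑ y, e y) * (∑ y, e y)) = (Fintype.card Y : ℂ) * (a * c + b * τ) := by
    rw [Finset.sum_mul, map_sum]
    have h3 : ∀ y, LinearMap.trace ℂ V (e y * ∑ y, e y) = a * c + b * τ := by
      intro y
      rw [Finset.mul_sum, map_sum, ← Finset.sum_filter_add_sum_filter_not (s := (Finset.univ : Finset Y)) (fun y' => par y y')]
      rw [Finset.sum_congr rfl fun y' hy' => hpar y y' (Finset.mem_filter.mp hy').2,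
        Finset.sum_congr rfl fun y' hy' => hnp y y' (Finset.mem_filter.mp hy').2, Finset.sum_const, Finset.sum_const, ha y, hb y,
        nsmul_eq_mul, nsmul_eq_mul]
    rw [Finset.sum_congr rfl fun y _ => h3 y, Finset.sum_const, Finset.card_univ, nsmul_eq_mul]
  have hz' : (∑ y, e y) = z • (1 : V →ₗ[ℂ] V) := by
    rw [hz]; rfl
  rw [hz', map_smul, LinearMap.trace_one, smul_eq_mul] at t1
  rw [hz', smul_mul_smul_comm, one_mul, map_smul, LinearMap.trace_one, smul_eq_mul] at t2
  have hY0 : (Fintype.card Y : ℂ) ≠ 0 := Nat.cast_ne_zero.mpr hY.ne'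
  apply mul_left_cancel₀ hY0
  calc (Fintype.card Y : ℂ) * ((Fintype.card Y : ℂ) * c ^ 2) = ((Fintype.card Y : ℂ) * c) ^ 2 := by ring
    _ = (finrank ℂ V : ℂ) * (z * z * finrank ℂ V) := by rw [← t1]; ring
    _ = _ := by rw [t2]; ring

end CfsgLib.SLw
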