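import Cfsg.Agent.LibSLw5

/-! averaging idempotents of hyperplanes (helper26) -/
set_option autoImplicit false
set_option linter.unusedSectionVars false

namespace CfsgLib.SLw

open Matrix Module CfsgLib.Wt CfsgLib.WtQ CfsgLib.WtSp

section general

variable {G V M M' : Type*} [Group G] [AddCommGroup V] [Module ℂ V] [AddCommGroup M] [Fintype M] [AddCommGroup M'] [Fintype M']

theorem pr_conj (ρ : Representation ℂ G V) (j : Multiplicative M →* G) (j' : Multiplicative M' →* G) (g : G) (α : M ≃ M')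
    (h : ∀ m, g * j (Multiplicative.ofAdd m) * g⁻¹ = j' (Multiplicative.ofAdd (α m))) :
    ρ g * pr ρ j 0 = pr ρ j' 0 * ρ g := by
  rw [pr, pr, mul_smul_comm, smul_mul_assoc, Fintype.card_congr α, Finset.mul_sum, Finset.sum_mul]
  congr 1
  refine Fintype.sum_equiv α _ _ fun m => ?_
  rw [AddChar.zero_apply, AddChar.zero_apply, one_smul, one_smul, ← h m, ← map_mul, ← map_mul, inv_mul_cancel_right]

theorem nat_card_ker {A B : Type*} [AddCommGroup A] [AddCommGroup B] [Finite A] (φ : A →+ B) (hφ : Function.Surjective φ) :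
    Nat.card φ.ker * Nat.card B = Nat.card A := by
  rw [AddSubgroup.card_eq_card_quotient_mul_card_addSubgroup φ.ker, mul_comm,
    Nat.card_congr (QuotientAddGroup.quotientKerEquivOfSurjective φ hφ).toEquiv]

/-- the product of commuting idempotents -/
theorem trace_mul_of_comm [FiniteDimensional ℂ V] (ρ : Representation ℂ G V) (j : Multiplicative M →* G)
    (j' : Multiplicative M' →* G) (h : pr ρ j 0 * pr ρ j' 0 = pr ρ j' 0 * pr ρ j 0) :
    LinearMap.trace ℂ V (pr ρ j 0 * pr ρ j' 0) = (finrank ℂ ((wt ρ j 0 ⊓ wt ρ j' 0 : Submodule ℂ V)) : ℂ) := by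
  classical
  have h1 : LinearMap.IsProj (wt ρ j 0 ⊓ wt ρ j' 0) (pr ρ j 0 * pr ρ j' 0) := by
    refine ⟨fun v => ⟨pr_mem ρ j 0 _, ?_⟩, fun v hv => ?_⟩
    · rw [h]; exact pr_mem ρ j' 0 _
    · rw [Module.End.mul_apply, pr_of_mem ρ j' 0 0 hv.2, if_pos rfl, pr_of_mem ρ j 0 0 hv.1, if_pos rfl]
  exact h1.trace

end general

variable {ι : Type} [Fintype ι] [DecidableEq ι] {F : Type*} [Field F] [Finite F]

noncomputable instance fintypeK (f : ι → F) : Fintype (K f) := Fintype.ofFinite _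

variable {V : Type*} [AddCommGroup V] [Module ℂ V] [FiniteDimensional ℂ V] (ρ : Representation ℂ (SpecialLinearGroup ι F) V)

/-- averaging over the transvections with axis `K f` -/
noncomputable def ef (f : ι → F) : V →ₗ[ℂ] V := pr ρ (jf f) 0

/-- the action on hyperplanes -/
noncomputable def kEquiv (g : SpecialLinearGroup ι F) (f : ι → F) : K f ≃ K (f ᵥ* ((g⁻¹ : SpecialLinearGroup ι F) : Matrix ι ι F)) where
  toFun x := ⟨(g : Matrix ι ι F) *ᵥ (x : ι → F), by rw [mem_K, dot_conj]; exact x.2⟩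
  invFun x := ⟨((g⁻¹ : SpecialLinearGroup ι F) : Matrix ι ι F) *ᵥ (x : ι → F), by
    rw [mem_K, dotProduct_mulVec]; exact x.2⟩
  left_inv x := by
    apply Subtype.ext
    change ((g⁻¹ : SpecialLinearGroup ι F) : Matrix ι ι F) *ᵥ ((g : Matrix ι ι F) *ᵥ (x : ι → F)) = _
    rw [mulVec_mulVec, ← Matrix.SpecialLinearGroup.coe_mul, inv_mul_cancel, Matrix.SpecialLinearGroup.coe_one, one_mulVec]
  right_inv x := by
    apply Subtype.ext
    change (g : Matrix ι ι F) *ᵥ (((g⁻¹ : SpecialLinearGroup ι F) : Matrix ι ι F) *ᵥ (x : ι → F)) = _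
    rw [mulVec_mulVec, ← Matrix.SpecialLinearGroup.coe_mul, mul_inv_cancel, Matrix.SpecialLinearGroup.coe_one, one_mulVec]

theorem ef_conj (g : SpecialLinearGroup ι F) (f : ι → F) :
    ρ g * ef ρ f = ef ρ (f ᵥ* ((g⁻¹ : SpecialLinearGroup ι F) : Matrix ι ι F)) * ρ g := by
  refine pr_conj ρ (jf f) (jf _) g (kEquiv g f) fun x => ?_
  exact tv_conj g (x : ι → F) f x.2

noncomputable def kSmul (s : F) (hs : s ≠ 0) (f : ι → F) : K (s • f) ≃ K f where
  toFun x := ⟨s • (x : ι → F), by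
    rw [mem_K, dotProduct_smul, ← smul_dotProduct]; exact x.2⟩
  invFun x := ⟨s⁻¹ • (x : ι → F), by
    rw [mem_K, smul_dotProduct, dotProduct_smul, show f ⬝ᵥ (x : ι → F) = 0 from x.2, smul_zero, smul_zero]⟩
  left_inv x := by
    apply Subtype.ext
    change s⁻¹ • s • (x : ι → F) = _
    rw [smul_smul, inv_mul_cancel₀ hs, one_smul]
  right_inv x := by
    apply Subtype.ext
    change s • s⁻¹ • (x : ι → F) = _
    rw [smul_smul, mul_inv_cancel₀ hs, one_smul]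

theorem ef_smul (s : F) (hs : s ≠ 0) (f : ι → F) : ef ρ (s • f) = ef ρ f := by
  have h := pr_conj ρ (jf (s • f)) (jf f) 1 (kSmul s hs f) fun x => by
    rw [one_mul, inv_one, mul_one, jf_apply, jf_apply]
    apply tv_congr
    change vecMulVec (x : ι → F) (s • f) = vecMulVec (s • (x : ι → F)) f
    rw [vecMulVec_smul, smul_vecMulVec]
  rw [map_one, one_mul, mul_one] at h
  exact h

theorem T_conj (g : SpecialLinearGroup ι F) (f₁ f₂ : ι → F) :
    LinearMap.trace ℂ V (ef ρ (f₁ ᵥ* (g : Matrix ι ι F)) * ef ρ (f₂ ᵥ* (g : Matrix ι ι F))) =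
    LinearMap.trace ℂ V (ef ρ f₁ * ef ρ f₂) := by
  have h1 := ef_conj ρ g⁻¹ f₁
  have h2 := ef_conj ρ g⁻¹ f₂
  rw [inv_inv] at h1 h2
  have hc : ρ g⁻¹ * ρ g = 1 := by rw [← map_mul, inv_mul_cancel, map_one]
  have hc' : ρ g * ρ g⁻¹ = 1 := by rw [← map_mul, mul_inv_cancel, map_one]
  have e1 : ef ρ (f₁ ᵥ* (g : Matrix ι ι F)) = ρ g⁻¹ * ef ρ f₁ * ρ g := by rw [h1, mul_assoc, hc, mul_one]
  have e2 : ef ρ (f₂ ᵥ* (g : Matrix ι ι F)) = ρ g⁻¹ * ef ρ f₂ * ρ g := by rw [h2, mul_assoc, hc, mul_one]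
  rw [e1, e2]
  have : ρ g⁻¹ * ef ρ f₁ * ρ g * (ρ g⁻¹ * ef ρ f₂ * ρ g) = ρ g⁻¹ * (ef ρ f₁ * ef ρ f₂ * ρ g) := by
    calc _ = ρ g⁻¹ * ef ρ f₁ * (ρ g * ρ g⁻¹) * ef ρ f₂ * ρ g := by simp only [mul_assoc]
      _ = _ := by rw [hc', mul_one]; simp only [mul_assoc]
  rw [this, LinearMap.trace_mul_comm, mul_assoc, hc', mul_one]

theorem mem_span_pair_split {f₁ f₂ f₂' : ι → F} (h1 : f₂ ∈ Submodule.span F {f₁, f₂' - f₂})
    (h2 : f₂ ∉ Submodule.span F {f₁}) (h2' : f₂' ∉ Submodule.span F {f₁}) :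
    ∃ s t : F, s ≠ 0 ∧ f₂' = s • (f₂ + t • f₁) := by
  obtain ⟨α, β, h⟩ := Submodule.mem_span_pair.mp h1
  have hβ : β ≠ 0 := by
    rintro rfl
    rw [zero_smul, add_zero] at h
    exact h2 (Submodule.mem_span_singleton.mpr ⟨α, h⟩)
  have h5 : β • f₂' = (1 + β) • f₂ - α • f₁ := by
    rw [add_smul, one_smul]
    nth_rewrite 1 [← h]
    rw [smul_sub]; abel
  have hβ1 : 1 + β ≠ 0 := by
    intro h0
    rw [h0, zero_smul, zero_sub] at h5
    apply h2'
    rw [Submodule.mem_span_singleton]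
    exact ⟨-(β⁻¹ * α), by rw [neg_smul, mul_smul, ← smul_neg, ← h5, smul_smul, inv_mul_cancel₀ hβ, one_smul]⟩
  refine ⟨β⁻¹ * (1 + β), -((1 + β)⁻¹ * α), mul_ne_zero (inv_ne_zero hβ) hβ1, ?_⟩
  rw [mul_smul, smul_add, neg_smul, smul_neg, smul_smul (1 + β), mul_inv_cancel_left₀ hβ1, ← sub_eq_add_neg, ← h5, smul_smul,
    inv_mul_cancel₀ hβ, one_smul]

theorem T_fix {f₁ f₂ f₂' : ι → F} (h2 : f₂ ∉ Submodule.span F {f₁}) (h2' : f₂' ∉ Submodule.span F {f₁}) :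
    LinearMap.trace ℂ V (ef ρ f₁ * ef ρ f₂) = LinearMap.trace ℂ V (ef ρ f₁ * ef ρ f₂') := by
  have base : ∀ f₂ f₂' : ι → F, f₂ ∉ Submodule.span F {f₁, f₂' - f₂} →
      LinearMap.trace ℂ V (ef ρ f₁ * ef ρ f₂) = LinearMap.trace ℂ V (ef ρ f₁ * ef ρ f₂') := by
    intro f₂ f₂' hn
    obtain ⟨u, hu, hu2⟩ := exists_vec _ hn
    have hyu : (f₂' - f₂) ⬝ᵥ u = 0 := hu _ (Submodule.subset_span (by simp))
    have h1u : f₁ ⬝ᵥ u = 0 := hu _ (Submodule.subset_span (by simp))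
    have h3 := T_conj ρ (tv u (f₂' - f₂) hyu) f₁ f₂
    rw [vecMul_tv, vecMul_tv, h1u, hu2, zero_smul, add_zero, one_smul, add_sub_cancel] at h3
    exact h3.symm
  by_cases h1 : f₂ ∈ Submodule.span F {f₁, f₂' - f₂}
  · obtain ⟨s, t, hs, rfl⟩ := mem_span_pair_split h1 h2 h2'
    rw [ef_smul ρ s hs]
    apply base
    rw [add_sub_cancel_left]
    intro h
    obtain ⟨α, β, h⟩ := Submodule.mem_span_pair.mp h
    apply h2
    rw [Submodule.mem_span_singleton]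
    exact ⟨α + β * t, by rw [add_smul, mul_smul, h]⟩
  · exact base _ _ h1

theorem not_mem_span_symm {f₁ f₂ : ι → F} (hf : f₁ ≠ 0) (h : f₂ ∉ Submodule.span F {f₁}) : f₁ ∉ Submodule.span F {f₂} := by
  intro hcon
  obtain ⟨c, hc⟩ := Submodule.mem_span_singleton.mp hcon
  have hc0 : c ≠ 0 := by
    rintro rfl
    rw [zero_smul] at hc
    exact hf hc.symm
  apply h
  rw [Submodule.mem_span_singleton]
  exact ⟨c⁻¹, by rw [← hc, smul_smul, inv_mul_cancel₀ hc0, one_smul]⟩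

theorem T_const (hn : 2 ≤ Fintype.card ι) {f₁ f₂ f₁' f₂' : ι → F} (hf : f₁ ≠ 0) (hf' : f₁' ≠ 0) (h : f₂ ∉ Submodule.span F {f₁})
    (h' : f₂' ∉ Submodule.span F {f₁'}) :
    LinearMap.trace ℂ V (ef ρ f₁ * ef ρ f₂) = LinearMap.trace ℂ V (ef ρ f₁' * ef ρ f₂') := by
  obtain ⟨k, hk, hk'⟩ := exists_outside hn f₁ f₁'
  rw [T_fix ρ h hk, LinearMap.trace_mul_comm, T_fix ρ (not_mem_span_symm hf hk) (not_mem_span_symm hf' hk'),
    LinearMap.trace_mul_comm, T_fix ρ hk' h']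

/-- the functional -/
def phi (f : ι → F) : (ι → F) →+ F where
  toFun x := f ⬝ᵥ x
  map_zero' := dotProduct_zero f
  map_add' x y := dotProduct_add f x y

theorem card_K {f : ι → F} (hf : f ≠ 0) : Nat.card (K f) * Nat.card F = Nat.card F ^ Fintype.card ι := by
  have h1 : (phi f).ker = K f := rfl
  rw [← h1, nat_card_ker (phi f) ?_, Nat.card_fun, Nat.card_eq_fintype_card (α := ι)]
  intro c
  obtain ⟨u, -, hu⟩ := exists_vec (⊥ : Submodule F (ι → F)) (b := f) (by rwa [Submodule.mem_bot])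
  exact ⟨c • u, by change f ⬝ᵥ (c • u) = c; rw [dotProduct_smul, hu, smul_eq_mul, mul_one]⟩

theorem card_K2 {f f' : ι → F} (hf : f' ∉ Submodule.span F {f}) :
    Nat.card (K f ⊓ K f' : AddSubgroup (ι → F)) * Nat.card F = Nat.card (K f) := by
  have h1 : Nat.card ((phi f').comp (K f).subtype).ker = Nat.card (K f ⊓ K f' : AddSubgroup (ι → F)) := by
    refine Nat.card_congr ⟨fun x => ⟨(x : K f), x.1.2, x.2⟩, fun x => ⟨⟨x, x.2.1⟩, x.2.2⟩, fun x => rfl, fun x => rfl⟩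
  rw [← h1, nat_card_ker]
  intro c
  obtain ⟨u, hu, hu'⟩ := exists_vec _ hf
  refine ⟨⟨c • u, ?_⟩, ?_⟩
  · rw [mem_K, dotProduct_smul, hu f (Submodule.mem_span_singleton_self _), smul_zero]
  · change f' ⬝ᵥ (c • u) = c
    rw [dotProduct_smul, hu', smul_eq_mul, mul_one]

end CfsgLib.SLw
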