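import Cfsg.Agent.LibOw1
import Cfsg.Agent.LibSLw6
import Cfsg.Agent.LibSLw2
import Cfsg.Agent.LibSLw4

set_option autoImplicit false
set_option linter.unusedSectionVars false

/-! Eichler elements and their weights (helper26). -/

namespace CfsgLib.Ow

open Cfsg.Agent.H22 Module CfsgLib.Wt CfsgLib.WtQ CfsgLib.WtSp

section El
variable {F V : Type*} [Field F] [AddCommGroup V] [Module F V] (Q : QuadraticForm F V)

open Classical in
/-- Eichler elements, total version -/
noncomputable def El (z w : V) : EG Q :=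
  if h : Q z = 0 ∧ QuadraticMap.polar Q z w = 0 then ⟨oEich Q z w h.1 h.2, oEich_mem z w h.1 h.2⟩ else 1

variable {Q}

theorem eg_ext {g h : EG Q} (H : ∀ a, g.1.1 a = h.1.1 a) : g = h := Subtype.ext (og_ext H)

theorem eg_mul (g h : EG Q) (a : V) : (g * h).1.1 a = g.1.1 (h.1.1 a) := rfl

theorem eg_inv (g : EG Q) (a : V) : g.1.1 ((g⁻¹ : EG Q).1.1 a) = a := og_inv_apply g.1 a

theorem eg_inv' (g : EG Q) (a : V) : (g⁻¹ : EG Q).1.1 (g.1.1 a) = a := og_inv_apply' g.1 a

theorem El_apply {z w : V} (hz : Q z = 0) (hw : QuadraticMap.polar Q z w = 0) (a : V) : (El Q z w).1.1 a =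
    a + QuadraticMap.polar Q z a • w - QuadraticMap.polar Q w a • z - (Q w * QuadraticMap.polar Q z a) • z := by
  unfold El
  rw [dif_pos ⟨hz, hw⟩]
  exact oEich_apply z w hz hw a

theorem El_add {z w₁ w₂ : V} (hz : Q z = 0) (h1 : QuadraticMap.polar Q z w₁ = 0) (h2 : QuadraticMap.polar Q z w₂ = 0) :
    El Q z w₁ * El Q z w₂ = El Q z (w₁ + w₂) := by
  have h12 : QuadraticMap.polar Q z (w₁ + w₂) = 0 := by rw [QuadraticMap.polar_add_right, h1, h2, add_zero]
  unfold El
  rw [dif_pos ⟨hz, h1⟩, dif_pos ⟨hz, h2⟩, dif_pos ⟨hz, h12⟩]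
  exact Subtype.ext (oEich_mul z w₁ w₂ _ hz h1 h2 h12 rfl)

theorem El_zero (z : V) (hz : Q z = 0) : El Q z 0 = 1 := by
  have h : QuadraticMap.polar Q z 0 = 0 := by simp
  unfold El
  rw [dif_pos ⟨hz, h⟩]
  exact Subtype.ext (oEich_zero z hz h)

theorem El_conj (g : EG Q) {z w : V} (hz : Q z = 0) (hw : QuadraticMap.polar Q z w = 0) :
    g * El Q z w * g⁻¹ = El Q (g.1.1 z) (g.1.1 w) := by
  have hz' : Q (g.1.1 z) = 0 := by rw [og_Q, hz]
  have hw' : QuadraticMap.polar Q (g.1.1 z) (g.1.1 w) = 0 := by rw [og_polar, hw]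
  unfold El
  rw [dif_pos ⟨hz, hw⟩, dif_pos ⟨hz', hw'⟩]
  exact Subtype.ext (conj_oEich g.1 z w _ _ hz hw hz' hw' rfl rfl)

theorem El_scale {z w : V} (c : F) (hz : Q z = 0) (hw : QuadraticMap.polar Q z w = 0) :
    El Q (c • z) w = El Q z (c • w) := by
  have hz' : Q (c • z) = 0 := by rw [qsmul, hz, mul_zero]
  have hw' : QuadraticMap.polar Q (c • z) w = 0 := by rw [QuadraticMap.polar_smul_left, hw, smul_zero]
  have hw'' : QuadraticMap.polar Q z (c • w) = 0 := by rw [QuadraticMap.polar_smul_right, hw, smul_zero]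
  apply eg_ext
  intro a
  rw [El_apply hz' hw', El_apply hz hw'']
  simp only [QuadraticMap.polar_smul_left, smul_eq_mul, qsmul]
  module

theorem El_swap {z w : V} (hz : Q z = 0) (hw : Q w = 0) (hzw : QuadraticMap.polar Q z w = 0) :
    El Q z w = El Q w (-z) := by
  have hwz : QuadraticMap.polar Q w (-z) = 0 := by
    rw [QuadraticMap.polar_neg_right, QuadraticMap.polar_comm, hzw, neg_zero]
  apply eg_ext
  intro a
  rw [El_apply hz hzw, El_apply hw hwz]
  simp only [QuadraticMap.polar_neg_left, hw, QuadraticMap.map_neg, hz, zero_mul, zero_smul]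
  module

theorem El_self {z : V} (c : F) (hz : Q z = 0) : El Q z (c • z) = 1 := by
  have h : QuadraticMap.polar Q z (c • z) = 0 := by rw [QuadraticMap.polar_smul_right, pself, hz, mul_zero, smul_zero]
  apply eg_ext
  intro a
  rw [El_apply hz h]
  change _ = a
  simp only [QuadraticMap.polar_smul_left, smul_eq_mul, qsmul, hz]
  module

theorem El_inv {z w : V} (hz : Q z = 0) (hw : QuadraticMap.polar Q z w = 0) : (El Q z w)⁻¹ = El Q z (-w) := by
  rw [inv_eq_iff_mul_eq_one, El_add hz hw (by rw [QuadraticMap.polar_neg_right, hw, neg_zero]), add_neg_cancel, El_zero z hz]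

theorem El_fix {z w v : V} (hz : Q z = 0) (hw : QuadraticMap.polar Q z w = 0) (h1 : QuadraticMap.polar Q z v = 0)
    (h2 : QuadraticMap.polar Q w v = 0) : (El Q z w).1.1 v = v := by
  rw [El_apply hz hw, h1, h2]
  simp

/-- the homomorphism -/
noncomputable def J (z : V) (M : Submodule F V) (hz : Q z = 0) (hM : ∀ w ∈ M, QuadraticMap.polar Q z w = 0) :
    Multiplicative M →* EG Q where
  toFun w := El Q z (Multiplicative.toAdd w : M)
  map_one' := by
    change El Q z ((0 : M) : V) = 1
    exact El_zero z hz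
  map_mul' a b := by
    change El Q z ((Multiplicative.toAdd a + Multiplicative.toAdd b : M) : V) = _
    rw [Submodule.coe_add, ← El_add hz (hM _ (Multiplicative.toAdd a).2) (hM _ (Multiplicative.toAdd b).2)]

theorem J_apply (z : V) (M : Submodule F V) (hz : Q z = 0) (hM : ∀ w ∈ M, QuadraticMap.polar Q z w = 0) (w : M) :
    J z M hz hM (Multiplicative.ofAdd w) = El Q z (w : V) := rfl

variable (Q) in
/-- the characters -/
def chi (ψ : AddChar F ℂ) (M : Submodule F V) (r : V) : AddChar M ℂ :=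
  ψ.compAddMonoidHom ((QuadraticMap.polarBilin Q r).toAddMonoidHom.comp M.subtype.toAddMonoidHom)

theorem chi_apply (ψ : AddChar F ℂ) (M : Submodule F V) (r : V) (w : M) :
    chi Q ψ M r w = ψ (QuadraticMap.polar Q r w) := rfl

variable (Q) in
/-- the orthogonal of a vector -/
def px (x : V) : Submodule F V := LinearMap.ker (QuadraticMap.polarBilin Q x)

theorem mem_px {x w : V} : w ∈ px Q x ↔ QuadraticMap.polar Q x w = 0 := Iff.rfl

theorem mem_perp2 {x x' w : V} : w ∈ perp2 Q x x' ↔ QuadraticMap.polar Q x w = 0 ∧ QuadraticMap.polar Q x' w = 0 := Iff.rfl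

end El

section fin
variable {F V : Type*} [Field F] [Finite F] [AddCommGroup V] [Module F V] [FiniteDimensional F V] {Q : QuadraticForm F V}

theorem finV (F V : Type*) [Field F] [Finite F] [AddCommGroup V] [Module F V] [FiniteDimensional F V] : Finite V :=
  Module.finite_of_finite F

noncomputable instance fintypeSub (M : Submodule F V) : Fintype M := by
  haveI := finV F V
  exact Fintype.ofFinite M

noncomputable instance : Fintype (EG Q) := by
  haveI := finV F V
  haveI : Finite (V ≃ₗ[F] V) := Finite.of_injective (fun g : V ≃ₗ[F] V => (g : V → V)) (fun a b h => by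
    ext v; exact congrFun h v)
  haveI : Finite (OGrp Q) := inferInstance
  exact Fintype.ofFinite (EG Q)

instance : Finite (EG Q) := Finite.of_fintype _

/-- all characters of a nondegenerate space -/
theorem chi_bij {ψ : AddChar F ℂ} (hψ : ψ ≠ 1) (M : Submodule F V)
    (hM : ∀ r ∈ M, (∀ w ∈ M, QuadraticMap.polar Q r w = 0) → r = 0) :
    Function.Bijective (fun r : M => chi Q ψ M (r : V)) := by
  classical
  rw [Fintype.bijective_iff_injective_and_card]
  refine ⟨fun r s h => ?_, by rw [AddChar.card_eq]⟩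
  have h1 : ∀ w : M, QuadraticMap.polar Q (r : V) w = QuadraticMap.polar Q (s : V) w := by
    intro w
    apply psi_inj hψ
    intro c
    have := DFunLike.congr_fun h (c • w)
    rw [chi_apply, chi_apply, Submodule.coe_smul, QuadraticMap.polar_smul_right, QuadraticMap.polar_smul_right, smul_eq_mul,
      smul_eq_mul] at this
    rw [mul_comm, this, mul_comm]
  have h2 : (r : V) - s = 0 := by
    apply hM _ (M.sub_mem r.2 s.2)
    intro w hw
    rw [QuadraticMap.polar_sub_left, h1 ⟨w, hw⟩, sub_self]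
  exact Subtype.ext (sub_eq_zero.1 h2)

theorem perp2_nondeg {x x' : V} (hQ : (QuadraticMap.polarBilin Q).Nondegenerate) (h : HP Q x x') (r : V)
    (hr : r ∈ perp2 Q x x') (h0 : ∀ w ∈ perp2 Q x x', QuadraticMap.polar Q r w = 0) : r = 0 := by
  have := (h.nondeg hQ).1 ⟨r, hr⟩ (fun w => h0 w w.2)
  exact congrArg Subtype.val this

end fin

section rep
variable {F V : Type*} [Field F] [Finite F] [AddCommGroup V] [Module F V] [FiniteDimensional F V] {Q : QuadraticForm F V}
  {E : Type*} [AddCommGroup E] [Module ℂ E] (ρ : Representation ℂ (EG Q) E)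

/-- average over Eichler elements -/
noncomputable def av (z : V) (M : Submodule F V) : E →ₗ[ℂ] E :=
  (Fintype.card M : ℂ)⁻¹ • ∑ w : M, ρ (El Q z w)

theorem av_eq (z : V) (M : Submodule F V) (hz : Q z = 0) (hM : ∀ w ∈ M, QuadraticMap.polar Q z w = 0) :
    av ρ z M = pr ρ (J z M hz hM) 0 := by
  unfold av pr
  congr 1
  refine Finset.sum_congr rfl fun w _ => ?_
  rw [AddChar.zero_apply, one_smul]
  rfl

theorem av_conj (g : EG Q) {z : V} {M : Submodule F V} (hz : Q z = 0) (hM : ∀ w ∈ M, QuadraticMap.polar Q z w = 0)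
    {M' : Submodule F V} (hM' : ∀ w, w ∈ M' ↔ (g⁻¹ : EG Q).1.1 w ∈ M) :
    ρ g * av ρ z M = av ρ (g.1.1 z) M' * ρ g := by
  classical
  let e : M ≃ M' :=
    { toFun := fun w => ⟨g.1.1 w, (hM' _).2 (by rw [eg_inv']; exact w.2)⟩
      invFun := fun w => ⟨(g⁻¹ : EG Q).1.1 w, (hM' _).1 w.2⟩
      left_inv := fun w => Subtype.ext (eg_inv' g w)
      right_inv := fun w => Subtype.ext (eg_inv g w) }
  unfold av
  rw [mul_smul_comm, smul_mul_assoc, Fintype.card_congr e, Finset.mul_sum, Finset.sum_mul]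
  congr 1
  refine Fintype.sum_equiv e _ _ fun w => ?_
  rw [← map_mul, ← map_mul]
  congr 1
  rw [← mul_inv_eq_iff_eq_mul, El_conj g hz (hM _ w.2)]
  rfl

theorem avg_comp {A B E' : Type*} [AddCommGroup A] [AddCommGroup B] [Fintype A] [Fintype B] [AddCommGroup E'] [Module ℂ E']
    (φ : A →+ B) (hφ : Function.Surjective φ) (f : B → E') :
    (Fintype.card A : ℂ)⁻¹ • ∑ a, f (φ a) = (Fintype.card B : ℂ)⁻¹ • ∑ b, f b := by
  classical
  have h1 : ∑ a, f (φ a) = ∑ b, ((Finset.univ.filter fun a => φ a = b).card : ℂ) • f b := by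
    rw [← Finset.sum_fiberwise Finset.univ (fun a => φ a)]
    refine Finset.sum_congr rfl fun b _ => ?_
    rw [Finset.sum_congr rfl (g := fun _ => f b) (fun a ha => by rw [(Finset.mem_filter.1 ha).2]), Finset.sum_const,
      Nat.cast_smul_eq_nsmul]
  have h2 : ∀ b, (Finset.univ.filter fun a => φ a = b).card = Nat.card φ.ker := by
    intro b
    obtain ⟨a₀, ha₀⟩ := hφ b
    rw [← Fintype.card_subtype, ← Nat.card_eq_fintype_card]
    apply Nat.card_congr
    exact
      { toFun := fun a => ⟨a.1 - a₀, by rw [AddMonoidHom.mem_ker, map_sub, a.2, ha₀, sub_self]⟩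
        invFun := fun k => ⟨k.1 + a₀, by
          have := k.2
          rw [AddMonoidHom.mem_ker] at this
          rw [map_add, this, zero_add, ha₀]⟩
        left_inv := fun a => Subtype.ext (sub_add_cancel _ _)
        right_inv := fun k => Subtype.ext (add_sub_cancel_right _ _) }
  rw [h1]
  simp only [h2]
  rw [← Finset.smul_sum, smul_smul]
  congr 1
  have h3 := CfsgLib.SLw.nat_card_ker φ hφ
  rw [Nat.card_eq_fintype_card (α := B), Nat.card_eq_fintype_card (α := A)] at h3
  have hA : (Fintype.card A : ℂ) ≠ 0 := by exact_mod_cast Fintype.card_ne_zero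
  have hB : (Fintype.card B : ℂ) ≠ 0 := by exact_mod_cast Fintype.card_ne_zero
  have h4 : (Nat.card φ.ker : ℂ) * Fintype.card B = Fintype.card A := by exact_mod_cast h3
  field_simp
  linear_combination h4

theorem av_surj {z : V} {M M' : Submodule F V} (φ : M →+ M') (hφ : Function.Surjective φ)
    (h : ∀ w : M, El Q z (w : V) = El Q z (φ w : V)) : av ρ z M = av ρ z M' := by
  unfold av
  rw [← avg_comp φ hφ (fun w : M' => ρ (El Q z w))]
  congr 1
  exact Finset.sum_congr rfl fun w _ => by rw [h]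

theorem av_scale {z : V} {M : Submodule F V} (c : F) (hc : c ≠ 0) (hz : Q z = 0) (hM : ∀ w ∈ M, QuadraticMap.polar Q z w = 0) :
    av ρ (c • z) M = av ρ z M := by
  unfold av
  congr 1
  let e : M ≃ M :=
    { toFun := fun w => c • w
      invFun := fun w => c⁻¹ • w
      left_inv := fun w => by simp only [smul_smul, inv_mul_cancel₀ hc, one_smul]
      right_inv := fun w => by simp only [smul_smul, mul_inv_cancel₀ hc, one_smul] }
  refine Fintype.sum_equiv e _ _ fun w => ?_
  rw [El_scale c hz (hM _ w.2)]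
  rfl

/-- the average over the unipotent radical of the stabiliser of a singular point -/
noncomputable def ex (x : V) : E →ₗ[ℂ] E := av ρ x (px Q x)

theorem ex_conj (g : EG Q) {x : V} (hx : Q x = 0) : ρ g * ex ρ x = ex ρ (g.1.1 x) * ρ g := by
  unfold ex
  apply av_conj ρ g hx (fun w hw => hw)
  intro w
  rw [mem_px, mem_px]
  have := og_polar g.1 x ((g⁻¹ : EG Q).1.1 w)
  rw [eg_inv] at this
  rw [this]

theorem ex_scale {x : V} (hx : Q x = 0) (c : F) (hc : c ≠ 0) : ex ρ (c • x) = ex ρ x := by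
  unfold ex
  have h : px Q (c • x) = px Q x := by
    ext w
    rw [mem_px, mem_px, QuadraticMap.polar_smul_left, smul_eq_mul, mul_eq_zero]
    exact ⟨fun h => h.resolve_left hc, Or.inr⟩
  rw [h]
  exact av_scale ρ c hc hx (fun w hw => hw)

/-- projection along `x` -/
def prj {x x' : V} (h : HP Q x x') (M : Submodule F V) : (px Q x ⊓ M : Submodule F V) →+ V where
  toFun w := w.1 - QuadraticMap.polar Q x' w.1 • x
  map_zero' := by simp
  map_add' a b := by
    simp only [Submodule.coe_add, QuadraticMap.polar_add_right, add_smul]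
    abel

theorem av_partner {x x' : V} (h : HP Q x x') (M : Submodule F V) (hxM : x ∈ M) :
    av ρ x (px Q x ⊓ M) = av ρ x (perp2 Q x x' ⊓ M) := by
  let φ : (px Q x ⊓ M : Submodule F V) →+ (perp2 Q x x' ⊓ M : Submodule F V) :=
    { toFun := fun w => ⟨w.1 - QuadraticMap.polar Q x' w.1 • x, by
        have hw : QuadraticMap.polar Q x w.1 = 0 := w.2.1
        refine ⟨⟨?_, ?_⟩, M.sub_mem w.2.2 (M.smul_mem _ hxM)⟩
        · rw [QuadraticMap.polar_sub_right, QuadraticMap.polar_smul_right, hw, h.ee, smul_zero, sub_zero]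
        · rw [QuadraticMap.polar_sub_right, QuadraticMap.polar_smul_right, h.fe, smul_eq_mul, mul_one, sub_self]⟩
      map_zero' := by simp
      map_add' := fun a b => Subtype.ext (by
        simp only [Submodule.coe_add, QuadraticMap.polar_add_right, add_smul]
        abel) }
  refine av_surj ρ φ ?_ ?_
  · intro w
    refine ⟨⟨w.1, w.2.1.1, w.2.2⟩, Subtype.ext ?_⟩
    change w.1 - QuadraticMap.polar Q x' w.1 • x = w.1
    rw [show QuadraticMap.polar Q x' w.1 = 0 from w.2.1.2, zero_smul, sub_zero]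
  · intro w
    have hw : QuadraticMap.polar Q x w.1 = 0 := w.2.1
    change El Q x w.1 = El Q x (w.1 - QuadraticMap.polar Q x' w.1 • x)
    have h1 : QuadraticMap.polar Q x (-(QuadraticMap.polar Q x' w.1) • x) = 0 := by
      rw [QuadraticMap.polar_smul_right, h.ee, smul_zero]
    rw [sub_eq_add_neg, ← neg_smul, ← El_add h.1 hw h1, El_self _ h.1, mul_one]

theorem av_congr {z : V} {M M' : Submodule F V} (h : M = M') : av ρ z M = av ρ z M' := by rw [h]

theorem ex_eq {x x' : V} (h : HP Q x x') : ex ρ x = av ρ x (perp2 Q x x') := by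
  unfold ex
  have := av_partner ρ h ⊤ trivial
  rw [inf_top_eq, inf_top_eq] at this
  exact this

end rep

end CfsgLib.Ow
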