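import Cfsg.Agent.LibOw2

set_option autoImplicit false
set_option linter.unusedSectionVars false

/-! Weight spaces for orthogonal groups (helper26). -/

namespace CfsgLib.Ow

open Cfsg.Agent.H22 Module CfsgLib.Wt CfsgLib.WtQ CfsgLib.WtSp CfsgLib.SLw

section gen
variable {G E M : Type*} [Group G] [AddCommGroup E] [Module ℂ E] [AddCommGroup M] [Fintype M]
  (ρ : Representation ℂ G E) (j : Multiplicative M →* G)

theorem mul_pr_of_fix {T : E →ₗ[ℂ] E} {χ : AddChar M ℂ} (h : ∀ v ∈ wt ρ j χ, T v = v) : T * pr ρ j χ = pr ρ j χ := by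
  apply LinearMap.ext
  intro v
  exact h _ (pr_mem ρ j χ v)

theorem trace_move [FiniteDimensional ℂ E] {T : E →ₗ[ℂ] E} {χ χ' : AddChar M ℂ} (hne : χ ≠ χ')
    (h : ∀ v ∈ wt ρ j χ, T v ∈ wt ρ j χ') : LinearMap.trace ℂ E (T * pr ρ j χ) = 0 := by
  classical
  have h1 : T * pr ρ j χ = pr ρ j χ' * (T * pr ρ j χ) := by
    apply LinearMap.ext
    intro v
    rw [Module.End.mul_apply, Module.End.mul_apply, Module.End.mul_apply]
    rw [pr_of_mem ρ j χ' χ' (h _ (pr_mem ρ j χ v)), if_pos rfl]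
  have h2 : pr ρ j χ * pr ρ j χ' = 0 := by
    apply LinearMap.ext
    intro v
    rw [Module.End.mul_apply, pr_of_mem ρ j χ χ' (pr_mem ρ j χ' v), if_neg hne]
    rfl
  rw [h1, LinearMap.trace_mul_comm, mul_assoc, h2, mul_zero, map_zero]

theorem trace_fix [FiniteDimensional ℂ E] {T : E →ₗ[ℂ] E} {χ : AddChar M ℂ} (h : ∀ v ∈ wt ρ j χ, T v = v) :
    LinearMap.trace ℂ E (T * pr ρ j χ) = (finrank ℂ (wt ρ j χ) : ℂ) := by
  rw [mul_pr_of_fix ρ j h, trace_pr]

theorem pr_idem (χ : AddChar M ℂ) : pr ρ j χ * pr ρ j χ = pr ρ j χ := by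
  classical
  apply LinearMap.ext
  intro v
  rw [Module.End.mul_apply, pr_of_mem ρ j χ χ (pr_mem ρ j χ v), if_pos rfl]

theorem sum_pr_eq_one : ∑ χ : AddChar M ℂ, pr ρ j χ = 1 := by
  apply LinearMap.ext
  intro v
  rw [LinearMap.sum_apply]
  exact sum_pr ρ j v

end gen

section rep
variable {F V : Type*} [Field F] [Finite F] [AddCommGroup V] [Module F V] [FiniteDimensional F V] {Q : QuadraticForm F V}
  {E : Type*} [AddCommGroup E] [Module ℂ E] (ρ : Representation ℂ (EG Q) E) (ψ : AddChar F ℂ)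

/-- the homomorphism from the complement of a hyperbolic pair -/
noncomputable def jx {x x' : V} (h : HP Q x x') : Multiplicative (perp2 Q x x') →* EG Q :=
  J x (perp2 Q x x') h.1 (fun _ hw => hw.1)

theorem jx_apply {x x' : V} (h : HP Q x x') (w : perp2 Q x x') : jx h (Multiplicative.ofAdd w) = El Q x (w : V) := rfl

/-- weight spaces -/
noncomputable def wx {x x' : V} (h : HP Q x x') (r : V) : Submodule ℂ E := wt ρ (jx h) (chi Q ψ _ r)

/-- the projection on a weight space -/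
noncomputable def pw {x x' : V} (h : HP Q x x') (r : V) : E →ₗ[ℂ] E := pr ρ (jx h) (chi Q ψ _ r)

theorem mem_wx {x x' : V} {h : HP Q x x'} {r : V} {v : E} : v ∈ wx ρ ψ h r ↔
    ∀ w ∈ perp2 Q x x', ρ (El Q x w) v = ψ (QuadraticMap.polar Q r w) • v :=
  ⟨fun hv w hw => hv ⟨w, hw⟩, fun hv w => hv w w.2⟩

theorem wx_move {x x' : V} (h : HP Q x x') {c : F} (hc : c ≠ 0) (g : EG Q) (h1 : g.1.1 x = c • x)
    (h2 : g.1.1 x' = c⁻¹ • x') {r : V} {v : E} (hv : v ∈ wx ρ ψ h r) : ρ g v ∈ wx ρ ψ h (c⁻¹ • g.1.1 r) := by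
  rw [mem_wx] at hv ⊢
  intro w hw
  have hgw : ∀ y, QuadraticMap.polar Q y ((g⁻¹ : EG Q).1.1 w) = QuadraticMap.polar Q (g.1.1 y) w := by
    intro y
    exact og_polar_inv g.1 y w
  have hw' : c⁻¹ • (g⁻¹ : EG Q).1.1 w ∈ perp2 Q x x' := by
    constructor
    · rw [QuadraticMap.polar_smul_right, hgw, h1, QuadraticMap.polar_smul_left, hw.1, smul_zero, smul_zero]
    · rw [QuadraticMap.polar_smul_right, hgw, h2, QuadraticMap.polar_smul_left, hw.2, smul_zero, smul_zero]
  have hginv : (g⁻¹ : EG Q).1.1 x = c⁻¹ • x := by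
    have : (g⁻¹ : EG Q).1.1 (g.1.1 x) = x := eg_inv' g x
    rw [h1, map_smul] at this
    rw [← this, smul_smul, inv_mul_cancel₀ hc, one_smul, this]
  have key : El Q x w * g = g * El Q x (c⁻¹ • (g⁻¹ : EG Q).1.1 w) := by
    have e1 := El_conj (g⁻¹) h.1 hw.1
    rw [inv_inv] at e1
    have e2 : El Q x w * g = g * (g⁻¹ * El Q x w * g) := by group
    rw [e2, e1, hginv, El_scale c⁻¹ h.1]
    rw [hgw, h1, QuadraticMap.polar_smul_left, hw.1, smul_zero]
  rw [← Module.End.mul_apply, ← map_mul, key, map_mul, Module.End.mul_apply, hv _ hw', map_smul]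
  congr 2
  rw [QuadraticMap.polar_smul_right, hgw, QuadraticMap.polar_smul_left]

theorem wx_stab {x x' : V} (h : HP Q x x') (g : EG Q) (h1 : g.1.1 x = x) (h2 : g.1.1 x' = x') {r : V} {v : E}
    (hv : v ∈ wx ρ ψ h r) : ρ g v ∈ wx ρ ψ h (g.1.1 r) := by
  have := wx_move ρ ψ h one_ne_zero g (by rw [one_smul, h1]) (by rw [inv_one, one_smul, h2]) hv
  rwa [inv_one, one_smul] at this

theorem wx_map {x x' y y' : V} (h : HP Q x x') (h' : HP Q y y') (g : EG Q) (h1 : g.1.1 x = y) (h2 : g.1.1 x' = y') {r : V}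
    {v : E} (hv : v ∈ wx ρ ψ h r) : ρ g v ∈ wx ρ ψ h' (g.1.1 r) := by
  rw [mem_wx] at hv ⊢
  intro w hw
  have hgw : ∀ y, QuadraticMap.polar Q y ((g⁻¹ : EG Q).1.1 w) = QuadraticMap.polar Q (g.1.1 y) w := by
    intro y
    exact og_polar_inv g.1 y w
  have hw' : (g⁻¹ : EG Q).1.1 w ∈ perp2 Q x x' := by
    constructor
    · rw [hgw, h1, hw.1]
    · rw [hgw, h2, hw.2]
  have hginv : (g⁻¹ : EG Q).1.1 y = x := by rw [← h1]; exact eg_inv' g x
  have key : El Q y w * g = g * El Q x ((g⁻¹ : EG Q).1.1 w) := by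
    have e1 := El_conj (g⁻¹) h'.1 hw.1
    rw [inv_inv] at e1
    have e2 : El Q y w * g = g * (g⁻¹ * El Q y w * g) := by group
    rw [e2, e1, hginv]
  rw [← Module.End.mul_apply, ← map_mul, key, map_mul, Module.End.mul_apply, hv _ hw', map_smul, hgw]

theorem finrank_map {x x' y y' : V} (h : HP Q x x') (h' : HP Q y y') (g : EG Q) (h1 : g.1.1 x = y) (h2 : g.1.1 x' = y')
    (r : V) : finrank ℂ (wx ρ ψ h r) = finrank ℂ (wx ρ ψ h' (g.1.1 r)) := by
  have hi1 : (g⁻¹ : EG Q).1.1 y = x := by rw [← h1]; exact eg_inv' g x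
  have hi2 : (g⁻¹ : EG Q).1.1 y' = x' := by rw [← h2]; exact eg_inv' g x'
  refine LinearEquiv.finrank_eq (LinearEquiv.ofLinear
    ((ρ g).restrict (p := wx ρ ψ h r) (q := wx ρ ψ h' (g.1.1 r)) (fun v hv => wx_map ρ ψ h h' g h1 h2 hv))
    ((ρ g⁻¹).restrict (p := wx ρ ψ h' (g.1.1 r)) (q := wx ρ ψ h r) (fun v hv => by
      have := wx_map ρ ψ h' h g⁻¹ hi1 hi2 hv
      rwa [eg_inv'] at this)) ?_ ?_)
  · apply LinearMap.ext
    intro v
    exact Subtype.ext (rho_cancel ρ g (v : E))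
  · apply LinearMap.ext
    intro v
    exact Subtype.ext (rho_cancel' ρ g (v : E))

variable (Q) in
/-- all nontrivial weights are singular with multiplicity one -/
def One : Prop := ∀ (x x' : V) (h : HP Q x x') (r : V), r ∈ perp2 Q x x' → r ≠ 0 →
  (Q r = 0 → finrank ℂ (wx ρ ψ h r) = 1) ∧ (Q r ≠ 0 → wx ρ ψ h r = ⊥)

variable {ρ ψ}

theorem triv_aux {x x' : V} (h : HP Q x x') {r : V} (h1 : finrank ℂ (wx ρ ψ h r) = 1) {T : EG Q} {c a : F} (hc : c ≠ 0)
    (ha : a ^ 2 ≠ 1) (hT1 : T.1.1 x = c • x) (hT2 : T.1.1 x' = c⁻¹ • x') (hTr : T.1.1 r = c • r) {z w : V} (hz : Q z = 0)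
    (hzx : QuadraticMap.polar Q z x = 0) (hzx' : QuadraticMap.polar Q z x' = 0) (hwx : QuadraticMap.polar Q w x = 0)
    (hwx' : QuadraticMap.polar Q w x' = 0) (hzr : QuadraticMap.polar Q z r = 0) (hwr : QuadraticMap.polar Q w r = 0)
    (hzw : QuadraticMap.polar Q z w = 0)
    (hTz : T.1.1 z = a ^ 2 • z) (hTw : T.1.1 w = w) {v : E} (hv : v ∈ wx ρ ψ h r) : ρ (El Q z w) v = v := by
  set w1 := (a ^ 2 - 1)⁻¹ • w with hw1
  have ha' : a ^ 2 - 1 ≠ 0 := sub_ne_zero.2 ha
  have hzw1 : QuadraticMap.polar Q z w1 = 0 := by rw [hw1, QuadraticMap.polar_smul_right, hzw, smul_zero]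
  have hzw2 : QuadraticMap.polar Q z (a ^ 2 • w1) = 0 := by rw [QuadraticMap.polar_smul_right, hzw1, smul_zero]
  have hw1x : QuadraticMap.polar Q w1 x = 0 := by rw [hw1, QuadraticMap.polar_smul_left, hwx, smul_zero]
  have hw1x' : QuadraticMap.polar Q w1 x' = 0 := by rw [hw1, QuadraticMap.polar_smul_left, hwx', smul_zero]
  have hw1r : QuadraticMap.polar Q w1 r = 0 := by rw [hw1, QuadraticMap.polar_smul_left, hwr, smul_zero]
  have hT : T * El Q z w1 = El Q z w * (El Q z w1 * T) := by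
    have e1 := El_conj T hz hzw1
    rw [hTz, show T.1.1 w1 = w1 by rw [hw1, map_smul, hTw], El_scale _ hz hzw1, mul_inv_eq_iff_eq_mul] at e1
    rw [e1, ← mul_assoc, El_add hz hzw hzw1]
    congr 2
    rw [hw1, smul_smul]
    have : w = ((a ^ 2 - 1) * (a ^ 2 - 1)⁻¹) • w := by rw [mul_inv_cancel₀ ha', one_smul]
    nth_rewrite 2 [this]
    rw [← add_smul]
    congr 1
    field_simp
    ring
  refine comm_trivial ρ (jx h) (chi Q ψ _ r) h1 hT ?_ ?_ hv
  · intro u hu
    have := wx_move ρ ψ h hc T hT1 hT2 (r := r) hu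
    rw [hTr, smul_smul, inv_mul_cancel₀ hc, one_smul] at this
    exact this
  · intro u hu
    have := wx_stab ρ ψ h (El Q z w1) (El_fix hz hzw1 hzx hw1x) (El_fix hz hzw1 hzx' hw1x') (r := r) hu
    rw [El_fix hz hzw1 hzr hw1r] at this
    exact this

/-- Eichler elements orthogonal to a weight act trivially on the weight space -/
theorem triv (B : Big Q) {x x' : V} (h : HP Q x x') {r : V} (hr : r ∈ perp2 Q x x') (hr0 : r ≠ 0) (hQr : Q r = 0)
    (h1 : finrank ℂ (wx ρ ψ h r) = 1) {z w : V} (hzm : z ∈ perp2 Q x x') (hwm : w ∈ perp2 Q x x') (hz : Q z = 0)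
    (hzr : QuadraticMap.polar Q z r = 0) (hwr : QuadraticMap.polar Q w r = 0) (hzw : QuadraticMap.polar Q z w = 0)
    {v : E} (hv : v ∈ wx ρ ψ h r) : ρ (El Q z w) v = v := by
  obtain ⟨a, ha, ha2⟩ := B.hF
  -- the case `z = r`
  have hC : ∀ w : V, w ∈ perp2 Q x x' → QuadraticMap.polar Q w r = 0 → ρ (El Q r w) v = v := by
    intro w hwm hwr
    obtain ⟨r', hr'1, hr'2⟩ := B.exists_partner (Submodule.span F {x, x'}) r (not_mem_span_pair h hr0 hr.1 hr.2) (fun y hy => by
      obtain ⟨c, d, rfl⟩ := Submodule.mem_span_pair.1 hy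
      rw [QuadraticMap.polar_add_left, QuadraticMap.polar_smul_left, QuadraticMap.polar_smul_left, hr.1, hr.2, smul_zero,
        smul_zero, add_zero]) hQr
    have hxr' : QuadraticMap.polar Q x r' = 0 := hr'1 x (Submodule.subset_span (by simp))
    have hx'r' : QuadraticMap.polar Q x' r' = 0 := hr'1 x' (Submodule.subset_span (by simp))
    have hrw : QuadraticMap.polar Q r w = 0 := by rw [QuadraticMap.polar_comm]; exact hwr
    set β := QuadraticMap.polar Q r' w with hβ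
    set w0 := w - β • r with hw0
    have hrw0 : QuadraticMap.polar Q r w0 = 0 := by
      rw [hw0, QuadraticMap.polar_sub_right, QuadraticMap.polar_smul_right, hrw, hr'2.ee, smul_zero, sub_zero]
    have hr'w0 : QuadraticMap.polar Q r' w0 = 0 := by
      rw [hw0, QuadraticMap.polar_sub_right, QuadraticMap.polar_smul_right, hr'2.fe, smul_eq_mul, mul_one, ← hβ, sub_self]
    have hw0m : w0 ∈ perp2 Q x x' := Submodule.sub_mem _ hwm (Submodule.smul_mem _ _ hr)
    have hEl : El Q r w = El Q r w0 := by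
      have e : w = w0 + β • r := by rw [hw0, sub_add_cancel]
      have e2 : QuadraticMap.polar Q r (β • r) = 0 := by rw [QuadraticMap.polar_smul_right, hr'2.ee, smul_zero]
      rw [e, ← El_add hQr hrw0 e2, El_self _ hQr, mul_one]
    rw [hEl]
    obtain ⟨T1, k1, k2, k3⟩ := B.torus h ha
    obtain ⟨T2, l1, l2, l3⟩ := B.torus hr'2 ha
    have ha0 : a ^ 2 ≠ 0 := pow_ne_zero 2 ha
    have c1 := QuadraticMap.polar_comm (⇑Q)
    refine triv_aux h h1 (T := T1 * T2) (c := a ^ 2) (a := a) ha0 ha2 ?_ ?_ ?_ hQr ?_ ?_ ?_ ?_ ?_ ?_ hrw0 ?_ ?_ hv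
    · rw [eg_mul, l3 x (by rw [c1]; exact hr.1) (by rw [c1]; exact hxr'), k1]
    · rw [eg_mul, l3 x' (by rw [c1]; exact hr.2) (by rw [c1]; exact hx'r'), k2, inv_pow]
    · rw [eg_mul, l1, map_smul, k3 r hr.1 hr.2]
    · rw [c1]; exact hr.1
    · rw [c1]; exact hr.2
    · rw [c1]; exact hw0m.1
    · rw [c1]; exact hw0m.2
    · rw [pself, hQr, mul_zero]
    · rw [c1]; exact hrw0
    · rw [eg_mul, l1, map_smul, k3 r hr.1 hr.2]
    · rw [eg_mul, l3 w0 hrw0 hr'w0, k3 w0 hw0m.1 hw0m.2]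
  by_cases hsp : z ∈ Submodule.span F {r, w}
  · obtain ⟨α, β, hz2⟩ := Submodule.mem_span_pair.1 hsp
    by_cases hβ : β = 0
    · rw [hβ, zero_smul, add_zero] at hz2
      rw [← hz2, El_scale α hQr (by rw [QuadraticMap.polar_comm]; exact hwr)]
      exact hC _ (Submodule.smul_mem _ _ hwm) (by rw [QuadraticMap.polar_smul_left, hwr, smul_zero])
    · -- `w = β⁻¹ (z - α r)`
      have hw2 : w = β⁻¹ • z + (-(β⁻¹ * α)) • r := by
        rw [← hz2, smul_add, smul_smul, smul_smul, inv_mul_cancel₀ hβ, one_smul]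
        module
      have e1 : QuadraticMap.polar Q z (β⁻¹ • z) = 0 := by rw [QuadraticMap.polar_smul_right, pself, hz, mul_zero, smul_zero]
      have e2 : QuadraticMap.polar Q z ((-(β⁻¹ * α)) • r) = 0 := by rw [QuadraticMap.polar_smul_right, hzr, smul_zero]
      have e3 : Q ((-(β⁻¹ * α)) • r) = 0 := by rw [qsmul, hQr, mul_zero]
      rw [hw2, ← El_add hz e1 e2, El_self _ hz, one_mul, El_swap hz e3 e2, El_scale _ hQr (by
        rw [QuadraticMap.polar_neg_right, QuadraticMap.polar_comm, hzr, neg_zero])]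
      refine hC _ (Submodule.smul_mem _ _ (Submodule.neg_mem _ hzm)) ?_
      rw [QuadraticMap.polar_smul_left, QuadraticMap.polar_neg_left, hzr, neg_zero, smul_zero]
  · -- the partner of `z`
    have c1 := QuadraticMap.polar_comm (⇑Q)
    have hzx : QuadraticMap.polar Q z x = 0 := by rw [c1]; exact hzm.1
    have hzx' : QuadraticMap.polar Q z x' = 0 := by rw [c1]; exact hzm.2
    have hwx : QuadraticMap.polar Q w x = 0 := by rw [c1]; exact hwm.1
    have hwx' : QuadraticMap.polar Q w x' = 0 := by rw [c1]; exact hwm.2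
    have hnot : z ∉ Submodule.span F {x, x'} ⊔ Submodule.span F {r, w} := by
      intro hz3
      obtain ⟨y, hy, y', hy', hyy⟩ := Submodule.mem_sup.1 hz3
      obtain ⟨α, β, rfl⟩ := Submodule.mem_span_pair.1 hy
      obtain ⟨γ, δ, rfl⟩ := Submodule.mem_span_pair.1 hy'
      have e1 : QuadraticMap.polar Q x z = 0 := hzm.1
      have e2 : QuadraticMap.polar Q x' z = 0 := hzm.2
      rw [← hyy] at e1 e2
      simp only [QuadraticMap.polar_add_right, QuadraticMap.polar_smul_right, h.ee, h.2.2, h.fe, h.ff, smul_eq_mul, mul_zero,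
        mul_one, zero_add, add_zero, show QuadraticMap.polar Q x r = 0 from hr.1, show QuadraticMap.polar Q x w = 0 from hwm.1,
        show QuadraticMap.polar Q x' r = 0 from hr.2, show QuadraticMap.polar Q x' w = 0 from hwm.2] at e1 e2
      rw [e1, e2, zero_smul, zero_smul, zero_add, zero_add] at hyy
      exact hsp (hyy ▸ hy')
    obtain ⟨z', hz'1, hz'2⟩ := B.exists_partner _ z hnot (fun y hy => by
      obtain ⟨y1, hy1, y2, hy2, rfl⟩ := Submodule.mem_sup.1 hy
      obtain ⟨α, β, rfl⟩ := Submodule.mem_span_pair.1 hy1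
      obtain ⟨γ, δ, rfl⟩ := Submodule.mem_span_pair.1 hy2
      simp only [QuadraticMap.polar_add_left, QuadraticMap.polar_smul_left, show QuadraticMap.polar Q x z = 0 from hzm.1,
        show QuadraticMap.polar Q x' z = 0 from hzm.2, show QuadraticMap.polar Q r z = 0 by rw [c1]; exact hzr,
        show QuadraticMap.polar Q w z = 0 by rw [c1]; exact hzw, smul_zero, add_zero]) hz
    have q1 : QuadraticMap.polar Q z' x = 0 := by
      rw [c1]; exact hz'1 x (Submodule.mem_sup_left (Submodule.subset_span (by simp)))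
    have q2 : QuadraticMap.polar Q z' x' = 0 := by
      rw [c1]; exact hz'1 x' (Submodule.mem_sup_left (Submodule.subset_span (by simp)))
    have q3 : QuadraticMap.polar Q z' r = 0 := by
      rw [c1]; exact hz'1 r (Submodule.mem_sup_right (Submodule.subset_span (by simp)))
    have q4 : QuadraticMap.polar Q z' w = 0 := by
      rw [c1]; exact hz'1 w (Submodule.mem_sup_right (Submodule.subset_span (by simp)))
    obtain ⟨T, k1, k2, k3⟩ := B.torus hz'2 ha
    refine triv_aux h h1 (T := T) (c := 1) (a := a) one_ne_zero ha2 ?_ ?_ ?_ hz hzx hzx' hwx hwx' hzr hwr hzw k1 ?_ hv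
    · rw [one_smul, k3 x hzx q1]
    · rw [inv_one, one_smul, k3 x' hzx' q2]
    · rw [one_smul, k3 r hzr q3]
    · exact k3 w hzw q4

end rep

end CfsgLib.Ow
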