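import Cfsg.Agent.LibOw3

set_option autoImplicit false
set_option linter.unusedSectionVars false

/-! Counting for orthogonal groups (helper26). -/

namespace CfsgLib.Ow

open Cfsg.Agent.H22 Module

section
variable {F V : Type*} [Field F] [AddCommGroup V] [Module F V] [FiniteDimensional F V] {Q : QuadraticForm F V}

theorem Big.conj_HP (B : Big Q) {x x' y y' : V} (h : HP Q x x') (h' : HP Q y y') :
    ∃ g : EG Q, g.1.1 x = y ∧ g.1.1 x' = y' := by
  obtain ⟨x0, x0', z0, z0', t, t', u, hop, htx, htz, hs, -⟩ := B.fr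
  have key : ∀ {y y' : V}, HP Q y y' → ∃ g : EG Q, g.1.1 x0 = y ∧ g.1.1 x0' = y' := by
    intro y y' h'
    obtain ⟨g, hg⟩ := witt_fam B.hQ (QFam.vec _) (QFam.vec _) (HP.qfam hop.h1).indep (HP.qfam h').indep
      (fun i => by rw [(HP.qfam hop.h1).Q_vec, (HP.qfam h').Q_vec]) (fun i j => QFam.polar_vec (HP.qfam hop.h1) (HP.qfam h') i j)
    obtain ⟨k, hk, hk2⟩ := exists_EG' hs B.hQ B.hF' g
    refine ⟨⟨k, hk⟩, ?_, ?_⟩
    · change k.1 x0 = y
      rw [hk2 _ htx.xz htx.x'z]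
      exact hg (Sum.inl 0)
    · change k.1 x0' = y'
      rw [hk2 _ htx.xz' htx.x'z']
      exact hg (Sum.inr 0)
  obtain ⟨g1, h1, h2⟩ := key h
  obtain ⟨g2, k1, k2⟩ := key h'
  have inv : ∀ a b, g1.1.1 a = b → (g1⁻¹ : EG Q).1.1 b = a := by
    intro a b hab
    rw [← hab]
    exact og_inv_apply' g1.1 a
  refine ⟨g2 * g1⁻¹, ?_, ?_⟩
  · change g2.1.1 ((g1⁻¹ : EG Q).1.1 x) = y
    rw [inv _ _ h1, k1]
  · change g2.1.1 ((g1⁻¹ : EG Q).1.1 x') = y'
    rw [inv _ _ h2, k2]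

theorem Big.ext_OP (B : Big Q) {x x' : V} (h : HP Q x x') : ∃ z z', OP Q x x' z z' := by
  obtain ⟨x0, x0', z0, z0', t, t', u, hop, htx, htz, hs, -⟩ := B.fr
  obtain ⟨g, h1, h2⟩ := B.conj_HP hop.h1 h
  have := hop.map g.1
  rw [h1, h2] at this
  exact ⟨_, _, this⟩

/-- extension by a third pair -/
theorem Big.ext_OP3 (B : Big Q) {x x' z z' : V} (h : OP Q x x' z z') : ∃ w w', OP Q x x' w w' ∧ OP Q z z' w w' := by
  obtain ⟨x0, x0', z0, z0', t, t', u, hop, htx, htz, hs, -⟩ := B.fr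
  obtain ⟨g, h1, h2, h3, h4⟩ := B.conj_OP hop h
  have k1 := htx.symm.map g.1
  have k2 := htz.symm.map g.1
  rw [h1, h2] at k1
  rw [h3, h4] at k2
  exact ⟨_, _, k1, k2⟩

/-- third pair starting with a given vector -/
theorem Big.ext_OP3' (B : Big Q) {x x' z z' w : V} (h : OP Q x x' z z') (hw0 : w ≠ 0) (hw : Q w = 0)
    (h1 : w ∈ perp2 Q x x') (h2 : w ∈ perp2 Q z z') : ∃ w', OP Q x x' w w' ∧ OP Q z z' w w' := by
  have hnot : w ∉ Submodule.span F {x, x'} ⊔ Submodule.span F {z, z'} := by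
    intro hc
    obtain ⟨y, hy, y', hy', hyy⟩ := Submodule.mem_sup.1 hc
    obtain ⟨α, β, rfl⟩ := Submodule.mem_span_pair.1 hy
    obtain ⟨γ, δ, rfl⟩ := Submodule.mem_span_pair.1 hy'
    have e1 : QuadraticMap.polar Q x w = 0 := h1.1
    have e2 : QuadraticMap.polar Q x' w = 0 := h1.2
    have e3 : QuadraticMap.polar Q z w = 0 := h2.1
    have e4 : QuadraticMap.polar Q z' w = 0 := h2.2
    have hs := h.symm
    rw [← hyy] at e1 e2 e3 e4
    simp only [QuadraticMap.polar_add_right, QuadraticMap.polar_smul_right, h.h1.ee, h.h1.2.2, h.h1.fe, h.h1.ff,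
      h.h2.ee, h.h2.2.2, h.h2.fe, h.h2.ff, smul_eq_mul, mul_zero, h.xz, h.xz', h.x'z, h.x'z', hs.xz, hs.xz', hs.x'z, hs.x'z',
      mul_one, zero_add, add_zero] at e1 e2 e3 e4
    rw [e1, e2, e3, e4] at hyy
    apply hw0
    rw [← hyy]
    simp
  obtain ⟨w', k1, k2⟩ := B.exists_partner _ w hnot (fun y hy => by
    obtain ⟨y1, hy1, y2, hy2, rfl⟩ := Submodule.mem_sup.1 hy
    obtain ⟨α, β, rfl⟩ := Submodule.mem_span_pair.1 hy1
    obtain ⟨γ, δ, rfl⟩ := Submodule.mem_span_pair.1 hy2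
    simp only [QuadraticMap.polar_add_left, QuadraticMap.polar_smul_left, show QuadraticMap.polar Q x w = 0 from h1.1,
      show QuadraticMap.polar Q x' w = 0 from h1.2, show QuadraticMap.polar Q z w = 0 from h2.1,
      show QuadraticMap.polar Q z' w = 0 from h2.2, smul_zero, add_zero]) hw
  refine ⟨w', ⟨h.h1, k2, h1.1, ?_, h1.2, ?_⟩, ⟨h.h2, k2, h2.1, ?_, h2.2, ?_⟩⟩
  · exact k1 x (Submodule.mem_sup_left (Submodule.subset_span (by simp)))
  · exact k1 x' (Submodule.mem_sup_left (Submodule.subset_span (by simp)))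
  · exact k1 z (Submodule.mem_sup_right (Submodule.subset_span (by simp)))
  · exact k1 z' (Submodule.mem_sup_right (Submodule.subset_span (by simp)))

end

section count
variable {F V : Type*} [Field F] [Finite F] [AddCommGroup V] [Module F V] [FiniteDimensional F V] (Q : QuadraticForm F V)

/-- number of vectors of given norm in a subspace -/
noncomputable def nn (U : Submodule F V) (c : F) : ℕ := Nat.card {v : V // v ∈ U ∧ Q v = c}

variable {Q}

theorem nn_perp {x x' : V} (h : HP Q x x') {U : Submodule F V} (hx : x ∈ U) (hx' : x' ∈ U) (c : F) :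
    nn Q U c = Nat.card F * nn Q (U ⊓ perp2 Q x x') c + (Nat.card F - 1) * Nat.card (U ⊓ perp2 Q x x' : Submodule F V) := by
  haveI := Fintype.ofFinite F
  have h' : HP (qres Q U) ⟨x, hx⟩ ⟨x', hx'⟩ := h
  have h1 := h'.cnt_eq c
  have e1 : cnt (qres Q U) c = nn Q U c := by
    unfold cnt nn
    exact Nat.card_congr ⟨fun v => ⟨v.1.1, v.1.2, v.2⟩, fun v => ⟨⟨v.1, v.2.1⟩, v.2.2⟩, fun _ => rfl, fun _ => rfl⟩
  have e2 : cnt (qres (qres Q U) (perp2 (qres Q U) ⟨x, hx⟩ ⟨x', hx'⟩)) c = nn Q (U ⊓ perp2 Q x x') c := by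
    unfold cnt nn
    exact Nat.card_congr ⟨fun v => ⟨v.1.1.1, ⟨v.1.1.2, v.1.2⟩, v.2⟩, fun v => ⟨⟨⟨v.1, v.2.1.1⟩, v.2.1.2⟩, v.2.2⟩,
      fun _ => rfl, fun _ => rfl⟩
  have e3 : Fintype.card F ^ finrank F (perp2 (qres Q U) ⟨x, hx⟩ ⟨x', hx'⟩) = Nat.card (U ⊓ perp2 Q x x' : Submodule F V) := by
    rw [← Nat.card_eq_fintype_card, ← Module.natCard_eq_pow_finrank]
    exact Nat.card_congr ⟨fun v => ⟨v.1.1, ⟨v.1.2, v.2⟩⟩, fun v => ⟨⟨v.1, v.2.1⟩, v.2.2⟩,
      fun _ => rfl, fun _ => rfl⟩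
  rw [e1, e2, e3, ← Nat.card_eq_fintype_card] at h1
  exact h1

theorem nn_px {x x' : V} (h : HP Q x x') {U : Submodule F V} (hx : x ∈ U) (c : F) :
    nn Q (px Q x ⊓ U) c = Nat.card F * nn Q (U ⊓ perp2 Q x x') c := by
  haveI := finV F V
  unfold nn
  rw [← Nat.card_prod]
  refine Nat.card_congr ⟨fun v => (QuadraticMap.polar Q x' v.1, ⟨v.1 - QuadraticMap.polar Q x' v.1 • x, ?_, ?_⟩),
    fun p => ⟨p.1 • x + p.2.1, ?_, ?_⟩, ?_, ?_⟩
  · refine ⟨U.sub_mem v.2.1.2 (U.smul_mem _ hx), ?_, ?_⟩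
    · rw [QuadraticMap.polar_sub_right, QuadraticMap.polar_smul_right, h.ee, smul_zero, sub_zero]
      exact v.2.1.1
    · rw [QuadraticMap.polar_sub_right, QuadraticMap.polar_smul_right, h.fe, smul_eq_mul, mul_one, sub_self]
  · rw [qsub, qsmul, h.1, QuadraticMap.polar_smul_right, QuadraticMap.polar_comm Q v.1 x, show QuadraticMap.polar Q x v.1 = 0 from v.2.1.1,
      v.2.2]
    simp
  · refine ⟨?_, U.add_mem (U.smul_mem _ hx) p.2.2.1.1⟩
    change QuadraticMap.polar Q x (p.1 • x + p.2.1) = 0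
    rw [QuadraticMap.polar_add_right, QuadraticMap.polar_smul_right, h.ee, smul_zero, zero_add]
    exact p.2.2.1.2.1
  · rw [qadd, qsmul, h.1, QuadraticMap.polar_smul_left, show QuadraticMap.polar Q x p.2.1 = 0 from p.2.2.1.2.1, p.2.2.2]
    simp
  · intro v
    apply Subtype.ext
    simp
  · intro p
    have e : QuadraticMap.polar Q x' (p.1 • x + p.2.1) = p.1 := by
      rw [QuadraticMap.polar_add_right, QuadraticMap.polar_smul_right, h.fe, show QuadraticMap.polar Q x' p.2.1 = 0 from p.2.2.1.2.2,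
        smul_eq_mul, mul_one, add_zero]
    refine Prod.ext e (Subtype.ext ?_)
    change p.1 • x + p.2.1 - QuadraticMap.polar Q x' (p.1 • x + p.2.1) • x = p.2.1
    rw [e, add_sub_cancel_left]

theorem card_perp {x x' : V} (h : HP Q x x') {U : Submodule F V} (hx : x ∈ U) (hx' : x' ∈ U) :
    Nat.card U = Nat.card F ^ 2 * Nat.card (U ⊓ perp2 Q x x' : Submodule F V) := by
  have h' : HP (qres Q U) ⟨x, hx⟩ ⟨x', hx'⟩ := h
  rw [Nat.card_congr h'.equiv.toEquiv, Nat.card_prod, Nat.card_prod, pow_two]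
  congr 1
  exact Nat.card_congr ⟨fun v => ⟨v.1.1, ⟨v.1.2, v.2⟩⟩, fun v => ⟨⟨v.1, v.2.1⟩, v.2.2⟩,
      fun _ => rfl, fun _ => rfl⟩

theorem card_px {x x' : V} (h : HP Q x x') {U : Submodule F V} (hx : x ∈ U) :
    Nat.card (px Q x ⊓ U : Submodule F V) = Nat.card F * Nat.card (U ⊓ perp2 Q x x' : Submodule F V) := by
  rw [← Nat.card_prod]
  refine Nat.card_congr ⟨fun v => (QuadraticMap.polar Q x' v.1, ⟨v.1 - QuadraticMap.polar Q x' v.1 • x, ?_⟩),
    fun p => ⟨p.1 • x + p.2.1, ?_⟩, ?_, ?_⟩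
  · refine ⟨U.sub_mem v.2.2 (U.smul_mem _ hx), ?_, ?_⟩
    · rw [QuadraticMap.polar_sub_right, QuadraticMap.polar_smul_right, h.ee, smul_zero, sub_zero]
      exact v.2.1
    · rw [QuadraticMap.polar_sub_right, QuadraticMap.polar_smul_right, h.fe, smul_eq_mul, mul_one, sub_self]
  · refine ⟨?_, U.add_mem (U.smul_mem _ hx) p.2.2.1⟩
    change QuadraticMap.polar Q x (p.1 • x + p.2.1) = 0
    rw [QuadraticMap.polar_add_right, QuadraticMap.polar_smul_right, h.ee, smul_zero, zero_add]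
    exact p.2.2.2.1
  · intro v
    apply Subtype.ext
    simp
  · intro p
    have e : QuadraticMap.polar Q x' (p.1 • x + p.2.1) = p.1 := by
      rw [QuadraticMap.polar_add_right, QuadraticMap.polar_smul_right, h.fe, show QuadraticMap.polar Q x' p.2.1 = 0 from p.2.2.2.2,
        smul_eq_mul, mul_one, add_zero]
    refine Prod.ext e (Subtype.ext ?_)
    change p.1 • x + p.2.1 - QuadraticMap.polar Q x' (p.1 • x + p.2.1) • x = p.2.1
    rw [e, add_sub_cancel_left]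

end count

section nums
variable {F V : Type*} [Field F] [Finite F] [AddCommGroup V] [Module F V] [FiniteDimensional F V] {Q : QuadraticForm F V}

/-- all the numbers -/
structure Nums (Q : QuadraticForm F V) (x x' z z' w w' : V) (q n A : ℕ) : Prop where
  hq : q = Nat.card F
  hn : n = nn Q (perp2 Q x x' ⊓ perp2 Q z z') 0
  hA : A = Nat.card ((perp2 Q x x' ⊓ perp2 Q z z') ⊓ perp2 Q w w' : Submodule F V)

variable {x x' z z' w w' : V}

theorem mem_perp_of (h : OP Q x x' z z') : z ∈ perp2 Q x x' ∧ z' ∈ perp2 Q x x' := ⟨⟨h.xz, h.x'z⟩, ⟨h.xz', h.x'z'⟩⟩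

theorem inf_perm (U A B : Submodule F V) : U ⊓ A ⊓ B = U ⊓ B ⊓ A := by
  rw [inf_assoc, inf_comm A, ← inf_assoc]

theorem card_W2 (h1 : OP Q x x' z z') (h2 : OP Q x x' w w') (h3 : OP Q z z' w w') :
    Nat.card (perp2 Q x x' ⊓ perp2 Q z z' : Submodule F V) =
      Nat.card F ^ 2 * Nat.card (perp2 Q x x' ⊓ perp2 Q z z' ⊓ perp2 Q w w' : Submodule F V) :=
  card_perp h3.h2 (U := perp2 Q x x' ⊓ perp2 Q z z') ⟨(mem_perp_of h2).1, (mem_perp_of h3).1⟩
    ⟨(mem_perp_of h2).2, (mem_perp_of h3).2⟩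

theorem card_W1 (h1 : OP Q x x' z z') :
    Nat.card (perp2 Q x x') = Nat.card F ^ 2 * Nat.card (perp2 Q x x' ⊓ perp2 Q z z' : Submodule F V) :=
  card_perp h1.h2 (mem_perp_of h1).1 (mem_perp_of h1).2

theorem nn_W1 (h1 : OP Q x x' z z') (c : F) :
    nn Q (perp2 Q x x') c = Nat.card F * nn Q (perp2 Q x x' ⊓ perp2 Q z z') c +
      (Nat.card F - 1) * Nat.card (perp2 Q x x' ⊓ perp2 Q z z' : Submodule F V) :=
  nn_perp h1.h2 (mem_perp_of h1).1 (mem_perp_of h1).2 c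

theorem nn_W1z (h1 : OP Q x x' z z') (c : F) :
    nn Q (px Q z ⊓ perp2 Q x x') c = Nat.card F * nn Q (perp2 Q x x' ⊓ perp2 Q z z') c :=
  nn_px h1.h2 (mem_perp_of h1).1 c

theorem nn_top (h : HP Q x x') (c : F) :
    nn Q ⊤ c = Nat.card F * nn Q (perp2 Q x x') c + (Nat.card F - 1) * Nat.card (perp2 Q x x') := by
  have := nn_perp h (U := ⊤) trivial trivial c
  rwa [top_inf_eq] at this

theorem nn_xperp (h : HP Q x x') (c : F) : nn Q (px Q x) c = Nat.card F * nn Q (perp2 Q x x') c := by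
  have := nn_px h (U := ⊤) trivial c
  rwa [top_inf_eq, inf_top_eq] at this

theorem nn_xz (h1 : OP Q x x' z z') (c : F) :
    nn Q (px Q x ⊓ px Q z) c = Nat.card F * (Nat.card F * nn Q (perp2 Q x x' ⊓ perp2 Q z z') c) := by
  have hx : x ∈ px Q z := by rw [mem_px, QuadraticMap.polar_comm]; exact h1.xz
  rw [nn_px h1.h1 hx, nn_W1z h1]

theorem nn_zw (h1 : OP Q x x' z z') (h2 : OP Q x x' w w') (h3 : OP Q z z' w w') (c : F) :
    nn Q (px Q z ⊓ (px Q w ⊓ perp2 Q x x')) c = Nat.card F * (Nat.card F * nn Q (perp2 Q x x' ⊓ perp2 Q z z' ⊓ perp2 Q w w') c) := by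
  have hz : z ∈ px Q w ⊓ perp2 Q x x' := ⟨(QuadraticMap.polar_comm Q w z).trans h3.xz, (mem_perp_of h1).1⟩
  rw [nn_px h1.h2 hz, inf_assoc, nn_px h2.h2 (U := perp2 Q x x' ⊓ perp2 Q z z') ⟨(mem_perp_of h2).1, (mem_perp_of h3).1⟩]

theorem nn_W2 (h1 : OP Q x x' z z') (h2 : OP Q x x' w w') (h3 : OP Q z z' w w') (c : F) :
    nn Q (perp2 Q x x' ⊓ perp2 Q z z') c = Nat.card F * nn Q (perp2 Q x x' ⊓ perp2 Q z z' ⊓ perp2 Q w w') c +
      (Nat.card F - 1) * Nat.card (perp2 Q x x' ⊓ perp2 Q z z' ⊓ perp2 Q w w' : Submodule F V) :=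
  nn_perp h3.h2 (U := perp2 Q x x' ⊓ perp2 Q z z') ⟨(mem_perp_of h2).1, (mem_perp_of h3).1⟩
    ⟨(mem_perp_of h2).2, (mem_perp_of h3).2⟩ c

end nums

end CfsgLib.Ow
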