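import Cfsg.Agent.LibOw5

set_option autoImplicit false
set_option linter.unusedSectionVars false

/-! More traces for orthogonal groups (helper26). -/

namespace CfsgLib.Ow

open Cfsg.Agent.H22 Module CfsgLib.Wt CfsgLib.WtQ CfsgLib.WtSp CfsgLib.SLw

section rep
variable {F V : Type*} [Field F] [Finite F] [AddCommGroup V] [Module F V] [FiniteDimensional F V] {Q : QuadraticForm F V}
  {E : Type*} [AddCommGroup E] [Module ℂ E] {ρ : Representation ℂ (EG Q) E} {ψ : AddChar F ℂ}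

theorem chi_ne (B : Big Q) (hψ : ψ ≠ 1) {x x' r s : V} (h : HP Q x x') (hr : r ∈ perp2 Q x x') (hs : s ∈ perp2 Q x x')
    (hne : r ≠ s) : chi Q ψ (perp2 Q x x') r ≠ chi Q ψ (perp2 Q x x') s := by
  intro hc
  have := (chi_bij hψ (perp2 Q x x') (perp2_nondeg B.hQ h)).1 (a₁ := ⟨r, hr⟩) (a₂ := ⟨s, hs⟩) hc
  exact hne (congrArg Subtype.val this)

theorem pw_conj {x x' : V} (h : HP Q x x') (g : EG Q) (h1 : g.1.1 x = x) (h2 : g.1.1 x' = x') (r : V) :
    ρ g * pw ρ ψ h r = pw ρ ψ h (g.1.1 r) * ρ g := by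
  classical
  have hmem : ∀ w, w ∈ perp2 Q x x' → g.1.1 w ∈ perp2 Q x x' := by
    intro w hw
    constructor
    · rw [← h1, og_polar]; exact hw.1
    · rw [← h2, og_polar]; exact hw.2
  have hi1 : (g⁻¹ : EG Q).1.1 x = x := by nth_rewrite 1 [← h1]; exact eg_inv' g x
  have hi2 : (g⁻¹ : EG Q).1.1 x' = x' := by nth_rewrite 1 [← h2]; exact eg_inv' g x'
  have hmem' : ∀ w, w ∈ perp2 Q x x' → (g⁻¹ : EG Q).1.1 w ∈ perp2 Q x x' := by
    intro w hw
    constructor
    · rw [← hi1, og_polar]; exact hw.1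
    · rw [← hi2, og_polar]; exact hw.2
  unfold pw pr
  rw [mul_smul_comm, smul_mul_assoc, Finset.mul_sum, Finset.sum_mul]
  congr 1
  let e : perp2 Q x x' ≃ perp2 Q x x' :=
    { toFun := fun w => ⟨g.1.1 w, hmem _ w.2⟩
      invFun := fun w => ⟨(g⁻¹ : EG Q).1.1 w, hmem' _ w.2⟩
      left_inv := fun w => Subtype.ext (eg_inv' g w)
      right_inv := fun w => Subtype.ext (eg_inv g w) }
  refine Fintype.sum_equiv e _ _ fun w => ?_
  rw [mul_smul_comm, smul_mul_assoc, ← map_mul, ← map_mul, jx_apply, jx_apply]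
  congr 1
  · rw [chi_apply, chi_apply]
    congr 1
    change QuadraticMap.polar Q r (((-w : perp2 Q x x') : V)) = QuadraticMap.polar Q (g.1.1 r) ((-(e w) : perp2 Q x x') : V)
    have : ((-(e w) : perp2 Q x x') : V) = g.1.1 ((-w : perp2 Q x x') : V) := by
      change -(g.1.1 (w : V)) = g.1.1 (-(w : V))
      rw [map_neg]
    rw [this, og_polar]
  · congr 1
    rw [← mul_inv_eq_iff_eq_mul, El_conj g h.1 w.2.1, h1]
    rfl

variable [FiniteDimensional ℂ E]

theorem trace_wx_move (B : Big Q) (hψ : ψ ≠ 1) {x x' r s : V} (h : HP Q x x') (hr : r ∈ perp2 Q x x')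
    (hs : s ∈ perp2 Q x x') (hne : r ≠ s) {T : E →ₗ[ℂ] E} (hT : ∀ v ∈ wx ρ ψ h r, T v ∈ wx ρ ψ h s) :
    LinearMap.trace ℂ E (T * pw ρ ψ h r) = 0 :=
  trace_move ρ (jx h) (chi_ne B hψ h hr hs hne) hT

theorem trace_wx_fix {x x' r : V} (h : HP Q x x') {T : E →ₗ[ℂ] E} (hT : ∀ v ∈ wx ρ ψ h r, T v = v) :
    LinearMap.trace ℂ E (T * pw ρ ψ h r) = (finrank ℂ (wx ρ ψ h r) : ℂ) := trace_fix ρ (jx h) hT

omit [FiniteDimensional F V] in
theorem card_ker_polar [Finite V] (M : Submodule F V) {r w₀ : V} (hw₀ : w₀ ∈ M) (hr : QuadraticMap.polar Q r w₀ ≠ 0) :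
    Nat.card {w : M // QuadraticMap.polar Q r (w : V) = 0} * Nat.card F = Nat.card M := by
  let φ : M →+ F := (QuadraticMap.polarBilin Q r).toAddMonoidHom.comp M.subtype.toAddMonoidHom
  have hφ : Function.Surjective φ := by
    intro c
    refine ⟨(c * (QuadraticMap.polar Q r w₀)⁻¹) • ⟨w₀, hw₀⟩, ?_⟩
    change QuadraticMap.polar Q r ((c * (QuadraticMap.polar Q r w₀)⁻¹) • w₀) = c
    rw [QuadraticMap.polar_smul_right, smul_eq_mul, mul_assoc, inv_mul_cancel₀ hr, mul_one]
  exact nat_card_ker φ hφ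

theorem polar_c (Q : QuadraticForm F V) {a b : V} (h : QuadraticMap.polar Q a b = 0) : QuadraticMap.polar Q b a = 0 := by
  rw [QuadraticMap.polar_comm]; exact h

/-- the averages over `A_z`, per weight -/
theorem trA'_aux (B : Big Q) (hψ : ψ ≠ 1) (h1 : One Q ρ ψ) {x x' z : V} (h : HP Q x x') (hz : z ∈ perp2 Q x x') (hz0 : z ≠ 0)
    (hQz : Q z = 0) {r : V} (hr : r ∈ perp2 Q x x') :
    LinearMap.trace ℂ E (av ρ z (px Q z ⊓ px Q x) * pw ρ ψ h r) =
      (LinearMap.trace ℂ E (av ρ z (px Q z ⊓ px Q x) * ex ρ x) - 1) * ind (r = 0) +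
        (1 - (Nat.card F : ℂ)⁻¹) * ind (r ∈ Submodule.span F {z}) +
        (Nat.card F : ℂ)⁻¹ * ind (r ∈ px Q z ∧ Q r = 0) := by
  have hzx : QuadraticMap.polar Q z x = 0 := polar_c Q hz.1
  have hzx' : QuadraticMap.polar Q z x' = 0 := polar_c Q hz.2
  have hM : ∀ w ∈ px Q z ⊓ px Q x, QuadraticMap.polar Q z w = 0 := fun w hw => hw.1
  by_cases hr0 : r = 0
  · have e : r ∈ px Q z ∧ Q r = 0 := by
      rw [hr0]
      exact ⟨Submodule.zero_mem _, QuadraticMap.map_zero Q⟩
    have e2 : r ∈ Submodule.span F {z} := by rw [hr0]; exact Submodule.zero_mem _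
    rw [ind_pos hr0, ind_pos e, ind_pos e2, hr0, pw_zero]
    ring
  rw [ind_neg hr0, mul_zero, zero_add]
  by_cases hQr : Q r = 0
  swap
  · have hns : ¬ (r ∈ Submodule.span F {z}) := by
      intro hc
      obtain ⟨c, rfl⟩ := Submodule.mem_span_singleton.1 hc
      apply hQr
      rw [qsmul, hQz, mul_zero]
    rw [ind_neg hns, ind_neg (p := r ∈ px Q z ∧ Q r = 0) (fun hc => hQr hc.2), pw_eq_zero h ((h1 x x' h r hr hr0).2 hQr)]
    simp
  have hone := (h1 x x' h r hr hr0).1 hQr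
  -- the action of `El z (β x)`
  have hbx : ∀ (β : F) (v : E), v ∈ wx ρ ψ h r → ρ (El Q z (β • x)) v = ψ (-(β * QuadraticMap.polar Q r z)) • v := by
    intro β v hv
    have e1 : Q (β • x) = 0 := by rw [qsmul, h.1, mul_zero]
    have e2 : QuadraticMap.polar Q z (β • x) = 0 := by rw [QuadraticMap.polar_smul_right, hzx, smul_zero]
    have e3 : QuadraticMap.polar Q x (-z) = 0 := by rw [QuadraticMap.polar_neg_right, hz.1, neg_zero]
    rw [El_swap hQz e1 e2, El_scale β h.1 e3, (mem_wx ρ ψ).1 hv _ (Submodule.smul_mem _ _ (Submodule.neg_mem _ hz))]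
    congr 2
    rw [QuadraticMap.polar_smul_right, QuadraticMap.polar_neg_right, smul_eq_mul]
    ring
  by_cases hrz : QuadraticMap.polar Q r z = 0
  swap
  · -- not orthogonal
    have hn1 : ¬ (r ∈ px Q z ∧ Q r = 0) := fun hc => hrz (polar_c Q hc.1)
    have hn2 : ¬ (r ∈ Submodule.span F {z}) := by
      intro hc
      obtain ⟨c, rfl⟩ := Submodule.mem_span_singleton.1 hc
      apply hrz
      rw [QuadraticMap.polar_smul_left, pself, hQz, mul_zero, smul_zero]
    rw [ind_neg hn1, ind_neg hn2, mul_zero, mul_zero, add_zero]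
    obtain ⟨β, hβ⟩ := exists_psi_ne hψ (neg_ne_zero.2 hrz)
    rw [mul_neg] at hβ
    rw [av_mul_pw_zero h hQz hM (w₀ := β • x) ?_ hβ (fun v hv => hbx β v hv), map_zero]
    refine ⟨?_, ?_⟩
    · change QuadraticMap.polar Q z (β • x) = 0
      rw [QuadraticMap.polar_smul_right, hzx, smul_zero]
    · change QuadraticMap.polar Q x (β • x) = 0
      rw [QuadraticMap.polar_smul_right, h.ee, smul_zero]
  -- decomposition
  have hact : ∀ w ∈ px Q z ⊓ px Q x, ∀ v ∈ wx ρ ψ h r,
      ρ (El Q z w) v = ρ (El Q z (w - QuadraticMap.polar Q x' w • x)) v := by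
    intro w hw v hv
    have e1 : QuadraticMap.polar Q z (w - QuadraticMap.polar Q x' w • x) = 0 := by
      rw [QuadraticMap.polar_sub_right, QuadraticMap.polar_smul_right, hzx, smul_zero, sub_zero]; exact hw.1
    have e2 : QuadraticMap.polar Q z (QuadraticMap.polar Q x' w • x) = 0 := by
      rw [QuadraticMap.polar_smul_right, hzx, smul_zero]
    have : El Q z w = El Q z (w - QuadraticMap.polar Q x' w • x) * El Q z (QuadraticMap.polar Q x' w • x) := by
      rw [El_add hQz e1 e2, sub_add_cancel]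
    rw [this, map_mul, Module.End.mul_apply, hbx _ v hv, hrz, mul_zero, neg_zero, AddChar.map_zero_eq_one, one_smul]
  have hw0 : ∀ w ∈ px Q z ⊓ px Q x, w - QuadraticMap.polar Q x' w • x ∈ perp2 Q x x' := by
    intro w hw
    have hxw : QuadraticMap.polar Q x w = 0 := hw.2
    constructor
    · rw [QuadraticMap.polar_sub_right, QuadraticMap.polar_smul_right, h.ee, smul_zero, sub_zero, hxw]
    · rw [QuadraticMap.polar_sub_right, QuadraticMap.polar_smul_right, h.fe, smul_eq_mul, mul_one, sub_self]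
  have hzw0 : ∀ w ∈ px Q z ⊓ px Q x, QuadraticMap.polar Q z (w - QuadraticMap.polar Q x' w • x) = 0 := by
    intro w hw
    rw [QuadraticMap.polar_sub_right, QuadraticMap.polar_smul_right, hzx, smul_zero, sub_zero]; exact hw.1
  have hrw0 : ∀ w, QuadraticMap.polar Q (w - QuadraticMap.polar Q x' w • x) r = QuadraticMap.polar Q r w := by
    intro w
    rw [QuadraticMap.polar_sub_left, QuadraticMap.polar_smul_left, show QuadraticMap.polar Q x r = 0 from hr.1, smul_zero,
      sub_zero, QuadraticMap.polar_comm]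
  have hfix : ∀ w ∈ px Q z ⊓ px Q x, QuadraticMap.polar Q r w = 0 → ∀ v ∈ wx ρ ψ h r, ρ (El Q z w) v = v := by
    intro w hw hrw v hv
    rw [hact w hw v hv]
    exact triv B h hr hr0 hQr hone hz (hw0 w hw) hQz (polar_c Q hrz) (by rw [hrw0]; exact hrw) (hzw0 w hw) hv
  rw [ind_pos (p := r ∈ px Q z ∧ Q r = 0) ⟨polar_c Q hrz, hQr⟩, mul_one]
  by_cases hsp : r ∈ Submodule.span F {z}
  · rw [ind_pos hsp, mul_one, sub_add_cancel]
    obtain ⟨c, hc⟩ := Submodule.mem_span_singleton.1 hsp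
    rw [av_mul_pw_of_fix h, trace_pw, hone, Nat.cast_one]
    intro v hv w hw
    refine hfix w hw ?_ v hv
    rw [← hc, QuadraticMap.polar_smul_left, hM w hw, smul_zero]
  · rw [ind_neg hsp, mul_zero, zero_add]
    -- count
    haveI := finV F V
    set M := px Q z ⊓ px Q x with hMdef
    obtain ⟨w₁, hw₁, hw₁r⟩ : ∃ w₁ ∈ M, QuadraticMap.polar Q r w₁ ≠ 0 := by
      by_contra hc
      push Not at hc
      apply hsp
      refine dbl B h hz hz0 hQz hr (fun w hw => hc w ⟨hw.2, hw.1.1⟩)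
    have hcard := card_ker_polar M hw₁ hw₁r
    have hterm : ∀ w : M, LinearMap.trace ℂ E (ρ (El Q z w) * pw ρ ψ h r) = ind (QuadraticMap.polar Q r (w : V) = 0) := by
      intro w
      by_cases hrw : QuadraticMap.polar Q r (w : V) = 0
      · rw [ind_pos hrw, trace_wx_fix h (hfix w w.2 hrw), hone, Nat.cast_one]
      · rw [ind_neg hrw]
        set w0 := (w : V) - QuadraticMap.polar Q x' (w : V) • x with hw0def
        have k1 : (El Q z w0).1.1 x = x := El_fix hQz (hzw0 w w.2) hzx (polar_c Q (hw0 w w.2).1)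
        have k2 : (El Q z w0).1.1 x' = x' := El_fix hQz (hzw0 w w.2) hzx' (polar_c Q (hw0 w w.2).2)
        have k3 : (El Q z w0).1.1 r = r - QuadraticMap.polar Q r (w : V) • z := by
          rw [El_apply hQz (hzw0 w w.2), polar_c Q hrz, hrw0]
          simp
        refine trace_wx_move B hψ h hr (s := r - QuadraticMap.polar Q r (w : V) • z)
          (Submodule.sub_mem _ hr (Submodule.smul_mem _ _ hz)) ?_ ?_
        · intro hc
          have : QuadraticMap.polar Q r (w : V) • z = 0 := by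
            rw [eq_comm, sub_eq_self] at hc; exact hc
          rcases smul_eq_zero.1 this with h4 | h4
          · exact hrw h4
          · exact hz0 h4
        · intro v hv
          rw [hact w w.2 v hv, ← k3]
          exact wx_stab ρ ψ h _ k1 k2 hv
    have hsum : LinearMap.trace ℂ E (av ρ z M * pw ρ ψ h r) = (Fintype.card M : ℂ)⁻¹ * ∑ w : M, ind (QuadraticMap.polar Q r (w : V) = 0) := by
      unfold av
      rw [smul_mul_assoc, Finset.sum_mul, map_smul, map_sum, smul_eq_mul]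
      congr 1
      exact Finset.sum_congr rfl fun w _ => hterm w
    have hcnt : ∑ w : M, ind (QuadraticMap.polar Q r (w : V) = 0) = (Nat.card {w : M // QuadraticMap.polar Q r (w : V) = 0} : ℂ) := by
      classical
      unfold ind
      rw [Finset.sum_ite, Finset.sum_const_zero, add_zero, Finset.sum_const, nsmul_eq_mul, mul_one, Nat.card_eq_fintype_card,
        Fintype.card_subtype]
    rw [hsum, hcnt, ← Nat.card_eq_fintype_card, ← hcard]
    have hne : (Nat.card {w : M // QuadraticMap.polar Q r (w : V) = 0} : ℂ) ≠ 0 := by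
      have : Nonempty {w : M // QuadraticMap.polar Q r (w : V) = 0} := ⟨⟨0, QuadraticMap.polar_zero_right _ _⟩⟩
      exact_mod_cast Nat.card_pos.ne'
    have hq0 : (Nat.card F : ℂ) ≠ 0 := by exact_mod_cast Nat.card_pos.ne'
    push_cast
    field_simp

theorem trA' (B : Big Q) (hψ : ψ ≠ 1) (h1 : One Q ρ ψ) {x x' z : V} (h : HP Q x x') (hz : z ∈ perp2 Q x x') (hz0 : z ≠ 0)
    (hQz : Q z = 0) :
    LinearMap.trace ℂ E (av ρ z (px Q z ⊓ px Q x)) =
      (LinearMap.trace ℂ E (av ρ z (px Q z ⊓ px Q x) * ex ρ x) - 1) + (Nat.card F - 1) +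
        (Nat.card F : ℂ)⁻¹ * nn Q (px Q z ⊓ perp2 Q x x') 0 := by
  rw [trace_sum B hψ h]
  rw [Finset.sum_congr rfl (fun r _ => trA'_aux B hψ h1 h hz hz0 hQz r.2), Finset.sum_add_distrib, Finset.sum_add_distrib,
    ← Finset.mul_sum, ← Finset.mul_sum, ← Finset.mul_sum, sum_ind_zero, sum_ind_span _ hz0 hz, sum_ind_nn]
  have hq0 : (Nat.card F : ℂ) ≠ 0 := by exact_mod_cast Nat.card_pos.ne'
  field_simp

/-- averages over long root groups, per weight -/
theorem trR'_aux (B : Big Q) (hψ : ψ ≠ 1) (h1 : One Q ρ ψ) {x x' z w₀ : V} (h : HP Q x x') (hz : z ∈ perp2 Q x x') (hz0 : z ≠ 0)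
    (hQz : Q z = 0) (hw : w₀ ∈ perp2 Q x x') (hw0 : w₀ ∉ Submodule.span F {z}) (hQw : Q w₀ = 0)
    (hzw : QuadraticMap.polar Q z w₀ = 0) {r : V} (hr : r ∈ perp2 Q x x') :
    LinearMap.trace ℂ E (av ρ z (Submodule.span F {w₀}) * pw ρ ψ h r) =
      (LinearMap.trace ℂ E (av ρ z (Submodule.span F {w₀}) * ex ρ x) - 1) * ind (r = 0) +
        (1 - (Nat.card F : ℂ)⁻¹) * ind (r ∈ px Q z ⊓ px Q w₀ ∧ Q r = 0) +
        (Nat.card F : ℂ)⁻¹ * ind (r ∈ (⊤ : Submodule F V) ∧ Q r = 0) := by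
  have hzx : QuadraticMap.polar Q z x = 0 := polar_c Q hz.1
  have hzx' : QuadraticMap.polar Q z x' = 0 := polar_c Q hz.2
  have hM : ∀ w ∈ Submodule.span F {w₀}, QuadraticMap.polar Q z w = 0 := by
    intro w hw
    obtain ⟨c, rfl⟩ := Submodule.mem_span_singleton.1 hw
    rw [QuadraticMap.polar_smul_right, hzw, smul_zero]
  have hMW : ∀ w ∈ Submodule.span F {w₀}, w ∈ perp2 Q x x' := by
    intro w hw'
    obtain ⟨c, rfl⟩ := Submodule.mem_span_singleton.1 hw'
    exact Submodule.smul_mem _ _ hw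
  by_cases hr0 : r = 0
  · have e : r ∈ px Q z ⊓ px Q w₀ ∧ Q r = 0 := by
      rw [hr0]
      exact ⟨Submodule.zero_mem _, QuadraticMap.map_zero Q⟩
    have e2 : r ∈ (⊤ : Submodule F V) ∧ Q r = 0 := ⟨trivial, e.2⟩
    rw [ind_pos hr0, ind_pos e, ind_pos e2, hr0, pw_zero]
    ring
  rw [ind_neg hr0, mul_zero, zero_add]
  by_cases hQr : Q r = 0
  swap
  · rw [ind_neg (fun hc => hQr hc.2), ind_neg (fun hc => hQr hc.2), pw_eq_zero h ((h1 x x' h r hr hr0).2 hQr)]
    simp
  have hone := (h1 x x' h r hr hr0).1 hQr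
  rw [ind_pos (p := r ∈ (⊤ : Submodule F V) ∧ Q r = 0) ⟨trivial, hQr⟩, mul_one]
  by_cases hor : QuadraticMap.polar Q z r = 0 ∧ QuadraticMap.polar Q w₀ r = 0
  · rw [ind_pos (p := r ∈ px Q z ⊓ px Q w₀ ∧ Q r = 0) ⟨⟨hor.1, hor.2⟩, hQr⟩, mul_one, sub_add_cancel]
    rw [av_mul_pw_of_fix h, trace_pw, hone, Nat.cast_one]
    intro v hv w hw'
    refine triv B h hr hr0 hQr hone hz (hMW w hw') hQz hor.1 ?_ (hM w hw') hv
    obtain ⟨c, rfl⟩ := Submodule.mem_span_singleton.1 hw'
    rw [QuadraticMap.polar_smul_left, hor.2, smul_zero]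
  · rw [ind_neg (fun hc => hor ⟨hc.1.1, hc.1.2⟩), mul_zero, zero_add]
    have hw00 : w₀ ≠ 0 := by
      rintro rfl
      exact hw0 (Submodule.zero_mem _)
    set M := Submodule.span F {w₀} with hMdef
    have hterm : ∀ w : M, LinearMap.trace ℂ E (ρ (El Q z w) * pw ρ ψ h r) = ind ((w : V) = 0) := by
      intro w
      by_cases hw1 : (w : V) = 0
      · rw [ind_pos hw1, hw1, El_zero z hQz, map_one, one_mul, trace_pw, hone, Nat.cast_one]
      · rw [ind_neg hw1]
        obtain ⟨c, hc⟩ := Submodule.mem_span_singleton.1 w.2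
        have hc0 : c ≠ 0 := by
          rintro rfl
          rw [zero_smul] at hc
          exact hw1 hc.symm
        have hQw' : Q (w : V) = 0 := by rw [← hc, qsmul, hQw, mul_zero]
        have k1 : (El Q z (w : V)).1.1 x = x := El_fix hQz (hM w w.2) hzx (polar_c Q (hMW w w.2).1)
        have k2 : (El Q z (w : V)).1.1 x' = x' := El_fix hQz (hM w w.2) hzx' (polar_c Q (hMW w w.2).2)
        have k3 : (El Q z (w : V)).1.1 r = r + (QuadraticMap.polar Q z r • (w : V) - QuadraticMap.polar Q (w : V) r • z) := by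
          rw [El_apply hQz (hM w w.2), hQw']
          simp only [zero_mul, zero_smul, sub_zero]
          abel
        refine trace_wx_move B hψ h hr (s := r + (QuadraticMap.polar Q z r • (w : V) - QuadraticMap.polar Q (w : V) r • z))
          (Submodule.add_mem _ hr (Submodule.sub_mem _ (Submodule.smul_mem _ _ (hMW w w.2)) (Submodule.smul_mem _ _ hz))) ?_ ?_
        · intro hcc
          have e0 : QuadraticMap.polar Q z r • (w : V) - QuadraticMap.polar Q (w : V) r • z = 0 := by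
            rw [eq_comm, add_eq_left] at hcc; exact hcc
          rw [← hc, smul_smul, QuadraticMap.polar_smul_left, sub_eq_zero] at e0
          by_cases hzr : QuadraticMap.polar Q z r = 0
          · rw [hzr, zero_mul, zero_smul, eq_comm, smul_eq_zero] at e0
            rcases e0 with e0 | e0
            · rw [smul_eq_mul, mul_eq_zero] at e0
              exact hor ⟨hzr, e0.resolve_left hc0⟩
            · exact hz0 e0
          · apply hw0
            rw [Submodule.mem_span_singleton]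
            refine ⟨(QuadraticMap.polar Q z r * c)⁻¹ * (c • QuadraticMap.polar Q w₀ r), ?_⟩
            rw [← smul_smul, ← e0, smul_smul, inv_mul_cancel₀ (mul_ne_zero hzr hc0), one_smul]
        · intro v hv
          rw [← k3]
          exact wx_stab ρ ψ h _ k1 k2 hv
    have hsum : LinearMap.trace ℂ E (av ρ z M * pw ρ ψ h r) = (Fintype.card M : ℂ)⁻¹ * ∑ w : M, ind ((w : V) = 0) := by
      unfold av
      rw [smul_mul_assoc, Finset.sum_mul, map_smul, map_sum, smul_eq_mul]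
      congr 1
      exact Finset.sum_congr rfl fun w _ => hterm w
    rw [hsum, sum_ind_zero, mul_one, ← Nat.card_eq_fintype_card, card_span hw00]

theorem trR' (B : Big Q) (hψ : ψ ≠ 1) (h1 : One Q ρ ψ) {x x' z w₀ : V} (h : HP Q x x') (hz : z ∈ perp2 Q x x') (hz0 : z ≠ 0)
    (hQz : Q z = 0) (hw : w₀ ∈ perp2 Q x x') (hw0 : w₀ ∉ Submodule.span F {z}) (hQw : Q w₀ = 0)
    (hzw : QuadraticMap.polar Q z w₀ = 0) :
    LinearMap.trace ℂ E (av ρ z (Submodule.span F {w₀})) =
      (LinearMap.trace ℂ E (av ρ z (Submodule.span F {w₀}) * ex ρ x) - 1) +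
        (1 - (Nat.card F : ℂ)⁻¹) * nn Q (px Q z ⊓ (px Q w₀ ⊓ perp2 Q x x')) 0 +
        (Nat.card F : ℂ)⁻¹ * nn Q (perp2 Q x x') 0 := by
  rw [trace_sum B hψ h]
  rw [Finset.sum_congr rfl (fun r _ => trR'_aux B hψ h1 h hz hz0 hQz hw hw0 hQw hzw r.2), Finset.sum_add_distrib,
    Finset.sum_add_distrib, ← Finset.mul_sum, ← Finset.mul_sum, ← Finset.mul_sum, sum_ind_zero, sum_ind_nn, sum_ind_nn,
    top_inf_eq, inf_assoc, mul_one]

/-- opposite points -/
theorem trOpp (B : Big Q) (hψ : ψ ≠ 1) (h1 : One Q ρ ψ) {x x' v₀ : V} (h : HP Q x x') (hv : v₀ ∈ perp2 Q x x') (hv0 : v₀ ≠ 0)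
    (hQv : Q v₀ = 0) : ∃ b : ℂ,
    LinearMap.trace ℂ E (ex ρ x') = (LinearMap.trace ℂ E (ex ρ x' * ex ρ x) - b) + b * nn Q (perp2 Q x x') 0 ∧
    ∀ v ∈ perp2 Q x x', v ≠ 0 → Q v = 0 → LinearMap.trace ℂ E (ex ρ x' * av ρ x (Submodule.span F {v})) =
      (LinearMap.trace ℂ E (ex ρ x' * ex ρ x) - b) + b * nn Q (px Q v ⊓ perp2 Q x x') 0 := by
  set b := LinearMap.trace ℂ E (ex ρ x' * pw ρ ψ h v₀) with hb
  have hconst : ∀ r ∈ perp2 Q x x', r ≠ 0 → Q r = 0 → LinearMap.trace ℂ E (ex ρ x' * pw ρ ψ h r) = b := by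
    intro r hr hr0 hQr
    obtain ⟨g, g1, g2, g3⟩ := B.conj_r h hr hr0 h hv hv0 (hQr.trans hQv.symm)
    have e1 := pw_conj (ρ := ρ) (ψ := ψ) h g g1 g2 r
    rw [g3] at e1
    have e2 := ex_conj ρ g h.2.1
    rw [g2] at e2
    have e3 : ρ g * (ex ρ x' * pw ρ ψ h r) = (ex ρ x' * pw ρ ψ h v₀) * ρ g := by
      rw [← mul_assoc, e2, mul_assoc, e1, mul_assoc]
    have e4 : ex ρ x' * pw ρ ψ h r = ρ g⁻¹ * ((ex ρ x' * pw ρ ψ h v₀) * ρ g) := by
      rw [← e3, ← mul_assoc, ← map_mul, inv_mul_cancel, map_one, one_mul]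
    rw [e4, LinearMap.trace_mul_comm, mul_assoc, ← map_mul, mul_inv_cancel, map_one, mul_one]
  refine ⟨b, ?_, ?_⟩
  · rw [trace_sum B hψ h (ex ρ x')]
    have key : ∀ r : perp2 Q x x', LinearMap.trace ℂ E (ex ρ x' * pw ρ ψ h r) =
        (LinearMap.trace ℂ E (ex ρ x' * ex ρ x) - b) * ind ((r : V) = 0) + b * ind ((r : V) ∈ (⊤ : Submodule F V) ∧ Q (r : V) = 0) := by
      intro r
      by_cases hr0 : (r : V) = 0
      · rw [ind_pos hr0, ind_pos (p := (r : V) ∈ (⊤ : Submodule F V) ∧ Q (r : V) = 0) ⟨trivial, by rw [hr0]; exact QuadraticMap.map_zero Q⟩,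
          hr0, pw_zero]
        ring
      · rw [ind_neg hr0, mul_zero, zero_add]
        by_cases hQr : Q (r : V) = 0
        · rw [ind_pos (p := (r : V) ∈ (⊤ : Submodule F V) ∧ Q (r : V) = 0) ⟨trivial, hQr⟩, mul_one, hconst r r.2 hr0 hQr]
        · rw [ind_neg (fun hc => hQr hc.2), pw_eq_zero h ((h1 x x' h r r.2 hr0).2 hQr), mul_zero, mul_zero, map_zero]
    rw [Finset.sum_congr rfl (fun r _ => key r), Finset.sum_add_distrib, ← Finset.mul_sum, ← Finset.mul_sum, sum_ind_zero,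
      sum_ind_nn, top_inf_eq, mul_one]
  · intro v hv hv0 hQv
    rw [trace_sum B hψ h (ex ρ x' * av ρ x (Submodule.span F {v}))]
    have hle : Submodule.span F {v} ≤ perp2 Q x x' := by rwa [Submodule.span_singleton_le_iff_mem]
    have key : ∀ r : perp2 Q x x', LinearMap.trace ℂ E (ex ρ x' * av ρ x (Submodule.span F {v}) * pw ρ ψ h r) =
        (LinearMap.trace ℂ E (ex ρ x' * ex ρ x) - b) * ind ((r : V) = 0) + b * ind ((r : V) ∈ px Q v ∧ Q (r : V) = 0) := by
      intro r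
      have hiff : (∀ w ∈ Submodule.span F {v}, QuadraticMap.polar Q (r : V) w = 0) ↔ (r : V) ∈ px Q v := by
        constructor
        · intro hh
          exact (QuadraticMap.polar_comm Q v (r : V)).trans (hh v (Submodule.mem_span_singleton_self v))
        · intro hh w hw
          obtain ⟨c, rfl⟩ := Submodule.mem_span_singleton.1 hw
          rw [QuadraticMap.polar_smul_right, QuadraticMap.polar_comm, show QuadraticMap.polar Q v (r : V) = 0 from hh, smul_zero]
      by_cases hr0 : (r : V) = 0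
      · have e1 : (r : V) ∈ px Q v := by rw [hr0]; exact Submodule.zero_mem _
        rw [ind_pos hr0, ind_pos (p := (r : V) ∈ px Q v ∧ Q (r : V) = 0) ⟨e1, by rw [hr0]; exact QuadraticMap.map_zero Q⟩,
          mul_assoc, (avx_mul hψ h hle _).1 (hiff.2 e1), hr0, pw_zero]
        ring
      · rw [ind_neg hr0, mul_zero, zero_add]
        by_cases hQr : Q (r : V) = 0
        · by_cases hrv : (r : V) ∈ px Q v
          · rw [ind_pos (p := (r : V) ∈ px Q v ∧ Q (r : V) = 0) ⟨hrv, hQr⟩, mul_one, mul_assoc,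
              (avx_mul hψ h hle _).1 (hiff.2 hrv), hconst r r.2 hr0 hQr]
          · rw [ind_neg (fun hc => hrv hc.1), mul_assoc, (avx_mul hψ h hle _).2 (fun hc => hrv (hiff.1 hc)), mul_zero,
              map_zero, mul_zero]
        · rw [ind_neg (fun hc => hQr hc.2), pw_eq_zero h ((h1 x x' h r r.2 hr0).2 hQr), mul_zero, mul_zero, map_zero]
    rw [Finset.sum_congr rfl (fun r _ => key r), Finset.sum_add_distrib, ← Finset.mul_sum, ← Finset.mul_sum, sum_ind_zero,
      sum_ind_nn, mul_one]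

end rep

end CfsgLib.Ow
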