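import Cfsg.Agent.LibOw6

set_option autoImplicit false
set_option linter.unusedSectionVars false

/-! The stabiliser of a singular line (helper26). -/

namespace CfsgLib.Ow

open Cfsg.Agent.H22 Module CfsgLib.Wt CfsgLib.WtQ CfsgLib.WtSp CfsgLib.SLw

section avG
variable {G E : Type*} [Group G] [Finite G] [AddCommGroup E] [Module ℂ E] (ρ : Representation ℂ G E)

/-- average over a subgroup -/
noncomputable def avG (H : Subgroup G) : E →ₗ[ℂ] E :=
  letI := Fintype.ofFinite H
  (Fintype.card H : ℂ)⁻¹ • ∑ h : H, ρ h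

variable {ρ}

theorem avG_left {H : Subgroup G} {h : G} (hh : h ∈ H) : ρ h * avG ρ H = avG ρ H := by
  letI := Fintype.ofFinite H
  unfold avG
  rw [mul_smul_comm, Finset.mul_sum]
  congr 1
  refine Fintype.sum_equiv (Equiv.mulLeft (⟨h, hh⟩ : H)) _ _ fun k => ?_
  rw [← map_mul]
  rfl

theorem avG_right {H : Subgroup G} {h : G} (hh : h ∈ H) : avG ρ H * ρ h = avG ρ H := by
  letI := Fintype.ofFinite H
  unfold avG
  rw [smul_mul_assoc, Finset.sum_mul]
  congr 1
  refine Fintype.sum_equiv (Equiv.mulRight (⟨h, hh⟩ : H)) _ _ fun k => ?_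
  rw [← map_mul]
  rfl

theorem avG_fix {H : Subgroup G} {v : E} (h : ∀ g ∈ H, ρ g v = v) : avG ρ H v = v := by
  letI := Fintype.ofFinite H
  unfold avG
  rw [LinearMap.smul_apply, LinearMap.sum_apply, Finset.sum_congr rfl (fun w _ => h w.1 w.2), Finset.sum_const,
    Finset.card_univ, ← Nat.cast_smul_eq_nsmul ℂ, smul_smul, inv_mul_cancel₀, one_smul]
  exact_mod_cast Fintype.card_ne_zero

theorem avG_mul_of_fix {H : Subgroup G} {T : E →ₗ[ℂ] E} (h : ∀ g ∈ H, ρ g * T = T) : avG ρ H * T = T := by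
  apply LinearMap.ext
  intro v
  exact avG_fix (fun g hg => LinearMap.congr_fun (h g hg) v)

theorem avG_idem (H : Subgroup G) : avG ρ H * avG ρ H = avG ρ H := avG_mul_of_fix (fun _ hg => avG_left hg)

theorem avG_conj {H : Subgroup G} {g : G} (h : ∀ k, k ∈ H ↔ g * k * g⁻¹ ∈ H) : ρ g * avG ρ H = avG ρ H * ρ g := by
  letI := Fintype.ofFinite H
  unfold avG
  rw [mul_smul_comm, smul_mul_assoc, Finset.mul_sum, Finset.sum_mul]
  congr 1
  let e : H ≃ H :=
    { toFun := fun k => ⟨g * k * g⁻¹, (h _).1 k.2⟩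
      invFun := fun k => ⟨g⁻¹ * k * g, (h _).2 (by
        have : g * (g⁻¹ * k * g) * g⁻¹ = (k : G) := by group
        rw [this]; exact k.2)⟩
      left_inv := fun k => Subtype.ext (by simp [mul_assoc])
      right_inv := fun k => Subtype.ext (by simp [mul_assoc]) }
  refine Fintype.sum_equiv e _ _ fun k => ?_
  rw [← map_mul, ← map_mul]
  change ρ (g * k) = ρ (g * k * g⁻¹ * g)
  rw [inv_mul_cancel_right]

theorem fix_closure {S : Set G} {T : E →ₗ[ℂ] E} (h : ∀ s ∈ S, ρ s * T = T) : ∀ g ∈ Subgroup.closure S, ρ g * T = T := by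
  intro g hg
  induction hg using Subgroup.closure_induction with
  | mem x hx => exact h x hx
  | one => rw [map_one, one_mul]
  | mul x y _ _ hx hy => rw [map_mul, mul_assoc, hy, hx]
  | inv x _ hx =>
    nth_rewrite 1 [← hx]
    rw [← mul_assoc, ← map_mul, inv_mul_cancel, map_one, one_mul]

omit [Finite G] in
theorem closure_conj {S : Set G} {g : G} (h : ∀ s ∈ S, g * s * g⁻¹ ∈ S) (h' : ∀ s ∈ S, g⁻¹ * s * g ∈ S) (k : G) :
    k ∈ Subgroup.closure S ↔ g * k * g⁻¹ ∈ Subgroup.closure S := by
  have key : ∀ (g : G), (∀ s ∈ S, g * s * g⁻¹ ∈ S) → ∀ k ∈ Subgroup.closure S, g * k * g⁻¹ ∈ Subgroup.closure S := by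
    intro g hg k hk
    induction hk using Subgroup.closure_induction with
    | mem x hx => exact Subgroup.subset_closure (hg x hx)
    | one => rw [mul_one, mul_inv_cancel]; exact Subgroup.one_mem _
    | mul x y _ _ hx hy =>
      have : g * (x * y) * g⁻¹ = (g * x * g⁻¹) * (g * y * g⁻¹) := by group
      rw [this]
      exact Subgroup.mul_mem _ hx hy
    | inv x _ hx =>
      have : g * x⁻¹ * g⁻¹ = (g * x * g⁻¹)⁻¹ := by group
      rw [this]
      exact Subgroup.inv_mem _ hx
  constructor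
  · exact key g h k
  · intro hk
    have := key g⁻¹ (fun s hs => by rw [inv_inv]; exact h' s hs) _ hk
    have e : g⁻¹ * (g * k * g⁻¹) * g⁻¹⁻¹ = k := by group
    rwa [e] at this

/-- the trace of an average is the dimension of the fixed space -/
theorem trace_idem [FiniteDimensional ℂ E] {T : E →ₗ[ℂ] E} (h : T * T = T) :
    LinearMap.trace ℂ E T = (finrank ℂ (LinearMap.range T) : ℂ) := by
  have : LinearMap.IsProj (LinearMap.range T) T := by
    refine ⟨fun v => ⟨v, rfl⟩, ?_⟩
    rintro _ ⟨v, rfl⟩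
    exact LinearMap.congr_fun h v
  exact this.trace

end avG

section line
variable {F V : Type*} [Field F] [Finite F] [AddCommGroup V] [Module F V] [FiniteDimensional F V] {Q : QuadraticForm F V}
  {E : Type*} [AddCommGroup E] [Module ℂ E] {ρ : Representation ℂ (EG Q) E} {ψ : AddChar F ℂ}

variable (Q) in
/-- generators of the unipotent radical of the stabiliser of the line -/
def setQ (x z : V) : Set (EG Q) := {g | ∃ y ∈ Submodule.span F {x, z}, ∃ w ∈ px Q x ⊓ px Q z, g = El Q y w}

variable (Q) in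
/-- generators of the derived group -/
def setH (x z : V) : Set (EG Q) := {g | ∃ y ∈ Submodule.span F {x, z}, ∃ w ∈ px Q y, g = El Q y w}

variable (Q) in
/-- stabilising the line -/
def StabL (x z : V) (g : EG Q) : Prop := ∀ y, y ∈ Submodule.span F {x, z} ↔ g.1.1 y ∈ Submodule.span F {x, z}

omit [Finite F] [FiniteDimensional F V] in
theorem line_sing {x z : V} (hx : Q x = 0) (hz : Q z = 0) (hxz : QuadraticMap.polar Q x z = 0) {y y' : V}
    (hy : y ∈ Submodule.span F {x, z}) (hy' : y' ∈ Submodule.span F {x, z}) :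
    Q y = 0 ∧ QuadraticMap.polar Q y y' = 0 := by
  obtain ⟨a, b, rfl⟩ := Submodule.mem_span_pair.1 hy
  obtain ⟨c, d, rfl⟩ := Submodule.mem_span_pair.1 hy'
  have hzx : QuadraticMap.polar Q z x = 0 := by rw [QuadraticMap.polar_comm]; exact hxz
  constructor
  · rw [qadd, qsmul, qsmul, hx, hz, QuadraticMap.polar_smul_left, QuadraticMap.polar_smul_right, hxz]
    simp
  · simp only [QuadraticMap.polar_add_left, QuadraticMap.polar_add_right, QuadraticMap.polar_smul_left,
      QuadraticMap.polar_smul_right, pself, hx, hz, hxz, hzx, mul_zero, smul_zero, add_zero]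

omit [Finite F] [FiniteDimensional F V] in
theorem line_perp {x z w y : V} (hy : y ∈ Submodule.span F {x, z}) (hw : w ∈ px Q x ⊓ px Q z) :
    QuadraticMap.polar Q y w = 0 := by
  obtain ⟨a, b, rfl⟩ := Submodule.mem_span_pair.1 hy
  have h1 : QuadraticMap.polar Q x w = 0 := hw.1
  have h2 : QuadraticMap.polar Q z w = 0 := hw.2
  rw [QuadraticMap.polar_add_left, QuadraticMap.polar_smul_left, QuadraticMap.polar_smul_left, h1, h2, smul_zero, smul_zero,
    add_zero]

omit [Finite F] [FiniteDimensional F V] in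
theorem mem_inf_iff {x z w : V} : w ∈ px Q x ⊓ px Q z ↔ ∀ y ∈ Submodule.span F {x, z}, QuadraticMap.polar Q y w = 0 := by
  constructor
  · intro hw y hy
    exact line_perp hy hw
  · intro h
    exact ⟨h x (Submodule.subset_span (by simp)), h z (Submodule.subset_span (by simp))⟩

omit [Finite F] [FiniteDimensional F V] in
theorem StabL.inv {x z : V} {g : EG Q} (h : StabL Q x z g) : StabL Q x z g⁻¹ := by
  intro y
  rw [h ((g⁻¹ : EG Q).1.1 y), eg_inv]

omit [Finite F] [FiniteDimensional F V] in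
theorem StabL.perp {x z : V} {g : EG Q} (h : StabL Q x z g) {w : V} (hw : w ∈ px Q x ⊓ px Q z) :
    g.1.1 w ∈ px Q x ⊓ px Q z := by
  rw [mem_inf_iff] at hw ⊢
  intro y hy
  rw [QuadraticMap.polar_comm, ← og_polar_inv, QuadraticMap.polar_comm] 
  exact hw _ ((h.inv y).1 hy)

omit [Finite F] [FiniteDimensional F V] in
theorem setQ_conj {x z : V} (hx : Q x = 0) (hz : Q z = 0) (hxz : QuadraticMap.polar Q x z = 0) {g : EG Q}
    (h : StabL Q x z g) : ∀ s ∈ setQ Q x z, g * s * g⁻¹ ∈ setQ Q x z := by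
  rintro _ ⟨y, hy, w, hw, rfl⟩
  refine ⟨g.1.1 y, (h y).1 hy, g.1.1 w, h.perp hw, ?_⟩
  exact El_conj g (line_sing hx hz hxz hy hy).1 (line_perp hy hw)

omit [Finite F] [FiniteDimensional F V] in
theorem setH_conj {x z : V} (hx : Q x = 0) (hz : Q z = 0) (hxz : QuadraticMap.polar Q x z = 0) {g : EG Q}
    (h : StabL Q x z g) : ∀ s ∈ setH Q x z, g * s * g⁻¹ ∈ setH Q x z := by
  rintro _ ⟨y, hy, w, hw, rfl⟩
  refine ⟨g.1.1 y, (h y).1 hy, g.1.1 w, ?_, ?_⟩
  · change QuadraticMap.polar Q (g.1.1 y) (g.1.1 w) = 0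
    rw [og_polar]; exact hw
  · exact El_conj g (line_sing hx hz hxz hy hy).1 hw

/-- the averages over the two subgroups -/
noncomputable def eQ (ρ : Representation ℂ (EG Q) E) (x z : V) : E →ₗ[ℂ] E := avG ρ (Subgroup.closure (setQ Q x z))

/-- the average over the derived group -/
noncomputable def pH (ρ : Representation ℂ (EG Q) E) (x z : V) : E →ₗ[ℂ] E := avG ρ (Subgroup.closure (setH Q x z))

theorem eQ_comm {x z : V} (hx : Q x = 0) (hz : Q z = 0) (hxz : QuadraticMap.polar Q x z = 0) {g : EG Q}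
    (h : StabL Q x z g) : ρ g * eQ ρ x z = eQ ρ x z * ρ g :=
  avG_conj (closure_conj (setQ_conj hx hz hxz h) (fun s hs => by
    have := setQ_conj hx hz hxz h.inv s hs
    rwa [inv_inv] at this))

theorem pH_comm {x z : V} (hx : Q x = 0) (hz : Q z = 0) (hxz : QuadraticMap.polar Q x z = 0) {g : EG Q}
    (h : StabL Q x z g) : ρ g * pH ρ x z = pH ρ x z * ρ g :=
  avG_conj (closure_conj (setH_conj hx hz hxz h) (fun s hs => by
    have := setH_conj hx hz hxz h.inv s hs
    rwa [inv_inv] at this))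

/-- Eichler elements of points of the line stabilise the line -/
theorem El_stab {x z : V} (hx : Q x = 0) (hz : Q z = 0) (hxz : QuadraticMap.polar Q x z = 0) {y w : V}
    (hy : y ∈ Submodule.span F {x, z}) (hw : w ∈ px Q y) : StabL Q x z (El Q y w) := by
  have hQy := (line_sing hx hz hxz hy hy).1
  have key : ∀ w, w ∈ px Q y → ∀ u ∈ Submodule.span F {x, z}, (El Q y w).1.1 u ∈ Submodule.span F {x, z} := by
    intro w hw u hu
    rw [El_apply hQy hw, (line_sing hx hz hxz hy hu).2]
    simp only [zero_smul, add_zero, mul_zero, sub_zero]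
    exact Submodule.sub_mem _ hu (Submodule.smul_mem _ _ hy)
  intro u
  constructor
  · exact key w hw u
  · intro hu
    have hw' : -w ∈ px Q y := Submodule.neg_mem _ hw
    have := key (-w) hw' _ hu
    rwa [← El_inv hQy hw, eg_inv'] at this

/-- generation of the radical by two pieces -/
theorem El_decomp {x z w : V} (hx : Q x = 0) (hz : Q z = 0) (hxz : QuadraticMap.polar Q x z = 0) (hw : w ∈ px Q x ⊓ px Q z)
    (a b : F) : El Q (a • x + b • z) w = El Q x ((-(a * b * Q w)) • z) * (El Q x (a • w) * El Q z (b • w)) := by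
  have hxw : QuadraticMap.polar Q x w = 0 := hw.1
  have hzw : QuadraticMap.polar Q z w = 0 := hw.2
  have hzx : QuadraticMap.polar Q z x = 0 := by rw [QuadraticMap.polar_comm]; exact hxz
  have hwx : QuadraticMap.polar Q w x = 0 := by rw [QuadraticMap.polar_comm]; exact hxw
  have hwz : QuadraticMap.polar Q w z = 0 := by rw [QuadraticMap.polar_comm]; exact hzw
  have hy : Q (a • x + b • z) = 0 := by
    rw [qadd, qsmul, qsmul, hx, hz, QuadraticMap.polar_smul_left, QuadraticMap.polar_smul_right, hxz]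
    simp
  have hyw : QuadraticMap.polar Q (a • x + b • z) w = 0 := by
    rw [QuadraticMap.polar_add_left, QuadraticMap.polar_smul_left, QuadraticMap.polar_smul_left, hxw, hzw]
    simp
  apply eg_ext
  intro u
  rw [eg_mul, eg_mul, El_apply hy hyw, El_apply hz (by rw [QuadraticMap.polar_smul_right, hzw, smul_zero]),
    El_apply hx (by rw [QuadraticMap.polar_smul_right, hxz, smul_zero]), El_apply hx (by rw [QuadraticMap.polar_smul_right, hxw, smul_zero])]
  simp only [QuadraticMap.polar_add_left, QuadraticMap.polar_add_right, QuadraticMap.polar_sub_right, QuadraticMap.polar_smul_left,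
    QuadraticMap.polar_smul_right, hxw, hzw, hxz, hzx, hwx, hwz, pself, hx, hz, qsmul, smul_eq_mul, mul_zero, zero_mul, add_zero,
    sub_zero, zero_smul, smul_zero]
  module

end line

end CfsgLib.Ow
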