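import Cfsg.Agent.LibOw7

set_option autoImplicit false
set_option linter.unusedSectionVars false

/-! The collinear trace (helper26). -/

namespace CfsgLib.Ow

open Cfsg.Agent.H22 Module CfsgLib.Wt CfsgLib.WtQ CfsgLib.WtSp CfsgLib.SLw

section line
variable {F V : Type*} [Field F] [Finite F] [AddCommGroup V] [Module F V] [FiniteDimensional F V] {Q : QuadraticForm F V}
  {E : Type*} [AddCommGroup E] [Module ℂ E] {ρ : Representation ℂ (EG Q) E} {ψ : AddChar F ℂ}

theorem trace_conj' {G E : Type*} [Group G] [AddCommGroup E] [Module ℂ E] [FiniteDimensional ℂ E] (ρ : Representation ℂ G E)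
    (g : G) {A B : E →ₗ[ℂ] E} (h : ρ g * A = B * ρ g) : LinearMap.trace ℂ E A = LinearMap.trace ℂ E B := by
  have : A = ρ g⁻¹ * (B * ρ g) := by rw [← h, ← mul_assoc, ← map_mul, inv_mul_cancel, map_one, one_mul]
  rw [this, LinearMap.trace_mul_comm, mul_assoc, ← map_mul, mul_inv_cancel, map_one, mul_one]

theorem av_comm_of {z : V} {M : Submodule F V} {T : E →ₗ[ℂ] E} (h : ∀ w ∈ M, ρ (El Q z w) * T = T * ρ (El Q z w)) :
    av ρ z M * T = T * av ρ z M := by
  unfold av
  rw [smul_mul_assoc, mul_smul_comm, Finset.sum_mul, Finset.mul_sum]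
  congr 1
  exact Finset.sum_congr rfl fun w _ => h w w.2

theorem av_mul_of {z : V} {M : Submodule F V} {T : E →ₗ[ℂ] E} (h : ∀ w ∈ M, ρ (El Q z w) * T = T) : av ρ z M * T = T := by
  apply LinearMap.ext
  intro v
  exact av_apply_eq (fun w hw => LinearMap.congr_fun (h w hw) v)

theorem mul_av_of {z : V} {M : Submodule F V} {T : E →ₗ[ℂ] E} (h : ∀ w ∈ M, T * ρ (El Q z w) = T) : T * av ρ z M = T := by
  unfold av
  rw [mul_smul_comm, Finset.mul_sum, Finset.sum_congr rfl (fun w _ => h w.1 w.2), Finset.sum_const, Finset.card_univ,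
    ← Nat.cast_smul_eq_nsmul ℂ, smul_smul, inv_mul_cancel₀, one_smul]
  exact_mod_cast Fintype.card_ne_zero

/-- the two halves commute -/
theorem eAB_comm {x z : V} (hx : Q x = 0) (hz : Q z = 0) (hxz : QuadraticMap.polar Q x z = 0) :
    av ρ x (px Q x ⊓ px Q z) * av ρ z (px Q z ⊓ px Q x) = av ρ z (px Q z ⊓ px Q x) * av ρ x (px Q x ⊓ px Q z) := by
  apply av_comm_of
  intro w hw
  have hxw : QuadraticMap.polar Q x w = 0 := hw.1
  have hzw : QuadraticMap.polar Q z w = 0 := hw.2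
  have hwz : QuadraticMap.polar Q w z = 0 := polar_c Q hzw
  have hgz : (El Q x w).1.1 z = z := El_fix hx hxw hxz hwz
  have hxx : QuadraticMap.polar Q x x = 0 := by rw [pself, hx, mul_zero]
  have hgx : (El Q x w).1.1 x = x := El_fix hx hxw hxx (polar_c Q hxw)
  have := av_conj ρ (El Q x w) hz (M := px Q z ⊓ px Q x) (fun (w : V) (hw : w ∈ px Q z ⊓ px Q x) => hw.1) (M' := px Q z ⊓ px Q x) (by
    intro y
    have e1 := og_polar_inv (El Q x w).1 z y
    have e2 := og_polar_inv (El Q x w).1 x y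
    rw [hgz] at e1
    rw [hgx] at e2
    constructor
    · intro hy
      exact ⟨e1.trans hy.1, e2.trans hy.2⟩
    · intro hy
      exact ⟨e1.symm.trans hy.1, e2.symm.trans hy.2⟩)
  rw [hgz] at this
  exact this

theorem eQ_eq {x z : V} (hx : Q x = 0) (hz : Q z = 0) (hxz : QuadraticMap.polar Q x z = 0) :
    av ρ x (px Q x ⊓ px Q z) * av ρ z (px Q z ⊓ px Q x) = eQ ρ x z := by
  have hA : ∀ w ∈ px Q x ⊓ px Q z, ρ (El Q x w) * av ρ x (px Q x ⊓ px Q z) = av ρ x (px Q x ⊓ px Q z) :=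
    fun w hw => av_absorb' (M := px Q x ⊓ px Q z) hx (fun w hw => hw.1) hw
  have hB : ∀ w ∈ px Q z ⊓ px Q x, ρ (El Q z w) * av ρ z (px Q z ⊓ px Q x) = av ρ z (px Q z ⊓ px Q x) :=
    fun w hw => av_absorb' (M := px Q z ⊓ px Q x) hz (fun w hw => hw.1) hw
  set A := av ρ x (px Q x ⊓ px Q z) with hAdef
  set B := av ρ z (px Q z ⊓ px Q x) with hBdef
  have hcomm : A * B = B * A := eAB_comm hx hz hxz
  have hgx : ∀ w ∈ px Q x ⊓ px Q z, ρ (El Q x w) * (A * B) = A * B := by
    intro w hw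
    rw [← mul_assoc, hA w hw]
  have hgz : ∀ w ∈ px Q x ⊓ px Q z, ρ (El Q z w) * (A * B) = A * B := by
    intro w hw
    rw [hcomm, ← mul_assoc, hB w ⟨hw.2, hw.1⟩]
  have h1 : eQ ρ x z * (A * B) = A * B := by
    refine avG_mul_of_fix (fix_closure ?_)
    rintro _ ⟨y, hy, w, hw, rfl⟩
    obtain ⟨a, b, rfl⟩ := Submodule.mem_span_pair.1 hy
    have hzm : z ∈ px Q x ⊓ px Q z := ⟨hxz, by
      change QuadraticMap.polar Q z z = 0
      rw [pself, hz, mul_zero]⟩
    rw [El_decomp hx hz hxz hw, map_mul, map_mul, mul_assoc (ρ _) _ (A * B), mul_assoc (ρ _) _ (A * B),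
      hgz _ (Submodule.smul_mem _ _ hw),
      hgx _ (Submodule.smul_mem _ _ hw), hgx _ (Submodule.smul_mem _ _ hzm)]
  have h2 : eQ ρ x z * A = eQ ρ x z := by
    apply mul_av_of
    intro w hw
    exact avG_right (Subgroup.subset_closure ⟨x, Submodule.subset_span (by simp), w, hw, rfl⟩)
  have h3 : eQ ρ x z * B = eQ ρ x z := by
    apply mul_av_of
    intro w hw
    exact avG_right (Subgroup.subset_closure ⟨z, Submodule.subset_span (by simp), w, ⟨hw.2, hw.1⟩, rfl⟩)
  rw [← h1, ← mul_assoc, h2, h3]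

theorem ex_absorb {y w : V} (hy : Q y = 0) (hw : w ∈ px Q y) : ex ρ y * ρ (El Q y w) = ex ρ y :=
  av_absorb hy (fun w hw => hw) hw

theorem ex_absorb' {y w : V} (hy : Q y = 0) (hw : w ∈ px Q y) : ρ (El Q y w) * ex ρ y = ex ρ y :=
  av_absorb' hy (fun w hw => hw) hw

theorem ex_idem {y : V} (hy : Q y = 0) : ex ρ y * ex ρ y = ex ρ y := av_mul_of (fun _ hw => ex_absorb' hy hw)

theorem pH_left {x z y w : V} (hy : y ∈ Submodule.span F {x, z}) (hw : w ∈ px Q y) :
    ρ (El Q y w) * pH ρ x z = pH ρ x z := avG_left (Subgroup.subset_closure ⟨y, hy, w, hw, rfl⟩)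

theorem pH_right {x z y w : V} (hy : y ∈ Submodule.span F {x, z}) (hw : w ∈ px Q y) :
    pH ρ x z * ρ (El Q y w) = pH ρ x z := avG_right (Subgroup.subset_closure ⟨y, hy, w, hw, rfl⟩)

theorem ex_pH {x z y : V} (hy : y ∈ Submodule.span F {x, z}) : ex ρ y * pH ρ x z = pH ρ x z :=
  av_mul_of (fun _ hw => pH_left hy hw)

theorem pH_ex {x z y : V} (hy : y ∈ Submodule.span F {x, z}) : pH ρ x z * ex ρ y = pH ρ x z :=
  mul_av_of (fun _ hw => pH_right hy hw)

theorem ex_comm_of {x z : V} (hx : Q x = 0) (hz : Q z = 0) (hxz : QuadraticMap.polar Q x z = 0) {y : V}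
    (hy : y ∈ Submodule.span F {x, z}) {T : E →ₗ[ℂ] E} (hT : ∀ g : EG Q, StabL Q x z g → ρ g * T = T * ρ g) :
    ex ρ y * T = T * ex ρ y := av_comm_of (fun _ hw => hT _ (El_stab hx hz hxz hy hw))

theorem eQ_pH {x z : V} : eQ ρ x z * pH ρ x z = pH ρ x z := by
  refine avG_mul_of_fix (fix_closure ?_)
  rintro _ ⟨y, hy, w, hw, rfl⟩
  exact pH_left hy (line_perp hy hw)

theorem pH_eQ {x z : V} (hx : Q x = 0) (hz : Q z = 0) (hxz : QuadraticMap.polar Q x z = 0) :
    pH ρ x z * eQ ρ x z = pH ρ x z := by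
  rw [← eQ_eq hx hz hxz, ← mul_assoc]
  have h1 : pH ρ x z * av ρ x (px Q x ⊓ px Q z) = pH ρ x z :=
    mul_av_of (fun w hw => pH_right (Submodule.subset_span (by simp)) hw.1)
  have h2 : pH ρ x z * av ρ z (px Q z ⊓ px Q x) = pH ρ x z :=
    mul_av_of (fun w hw => pH_right (Submodule.subset_span (by simp)) hw.1)
  rw [h1, h2]

/-- the nonzero vectors of the line -/
def Ln (F : Type*) {V : Type*} [Field F] [AddCommGroup V] [Module F V] (x z : V) : Type _ :=
  {y : V // y ∈ Submodule.span F {x, z} ∧ y ≠ 0}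

noncomputable instance (x z : V) : Fintype (Ln F x z) := by
  haveI := finV F V
  exact @Fintype.ofFinite _ (Subtype.finite)

/-- the sum of the averages over the points of the line -/
noncomputable def SL (ρ : Representation ℂ (EG Q) E) (x z : V) : E →ₗ[ℂ] E := ∑ y : Ln F x z, ex ρ y.1

theorem SL_comm {x z : V} (hx : Q x = 0) (hz : Q z = 0) (hxz : QuadraticMap.polar Q x z = 0) {g : EG Q}
    (h : StabL Q x z g) : ρ g * SL ρ x z = SL ρ x z * ρ g := by
  unfold SL
  rw [Finset.mul_sum, Finset.sum_mul]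
  let e : Ln F x z ≃ Ln F x z :=
    { toFun := fun y => ⟨g.1.1 y.1, (h _).1 y.2.1, fun h0 => y.2.2 (g.1.1.map_eq_zero_iff.1 h0)⟩
      invFun := fun y => ⟨(g⁻¹ : EG Q).1.1 y.1, (h.inv _).1 y.2.1, fun h0 => y.2.2 ((g⁻¹ : EG Q).1.1.map_eq_zero_iff.1 h0)⟩
      left_inv := fun y => Subtype.ext (eg_inv' g y.1)
      right_inv := fun y => Subtype.ext (eg_inv g y.1) }
  refine Fintype.sum_equiv e _ _ fun y => ?_
  exact ex_conj ρ g (line_sing hx hz hxz y.2.1 y.2.1).1

theorem SL_eQ {x z : V} (hx : Q x = 0) (hz : Q z = 0) (hxz : QuadraticMap.polar Q x z = 0) :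
    SL ρ x z * eQ ρ x z = eQ ρ x z * SL ρ x z := by
  unfold SL
  rw [Finset.mul_sum, Finset.sum_mul]
  refine Finset.sum_congr rfl fun y _ => ?_
  exact ex_comm_of hx hz hxz y.2.1 (fun g hg => eQ_comm hx hz hxz hg)

theorem SL_pH {x z : V} : SL ρ x z * pH ρ x z = (Fintype.card (Ln F x z) : ℂ) • pH ρ x z := by
  unfold SL
  rw [Finset.sum_mul, Finset.sum_congr rfl (fun y _ => ex_pH y.2.1), Finset.sum_const, Finset.card_univ, Nat.cast_smul_eq_nsmul]

theorem pH_SL {x z : V} : pH ρ x z * SL ρ x z = (Fintype.card (Ln F x z) : ℂ) • pH ρ x z := by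
  unfold SL
  rw [Finset.mul_sum, Finset.sum_congr rfl (fun y _ => pH_ex y.2.1), Finset.sum_const, Finset.card_univ, Nat.cast_smul_eq_nsmul]

/-- frames of the line -/
theorem OP.stabL {x x' z z' y y' w w' : V} (h : OP Q x x' z z') (h' : OP Q y y' w w') (hy : y ∈ Submodule.span F {x, z})
    (hw : w ∈ Submodule.span F {x, z}) (hx : x ∈ Submodule.span F {y, w}) (hz : z ∈ Submodule.span F {y, w}) {g : EG Q}
    (g1 : g.1.1 x = y) (g2 : g.1.1 z = w) : StabL Q x z g := by
  have hsp : Submodule.span F {x, z} = Submodule.span F {y, w} := by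
    apply le_antisymm
    · rw [Submodule.span_le]
      rintro u (rfl | rfl)
      · exact hx
      · exact hz
    · rw [Submodule.span_le]
      rintro u (rfl | rfl)
      · exact hy
      · exact hw
  intro u
  constructor
  · intro hu
    obtain ⟨a, b, rfl⟩ := Submodule.mem_span_pair.1 hu
    rw [map_add, map_smul, map_smul, g1, g2]
    exact Submodule.add_mem _ (Submodule.smul_mem _ _ hy) (Submodule.smul_mem _ _ hw)
  · intro hu
    rw [hsp] at hu
    obtain ⟨a, b, hab⟩ := Submodule.mem_span_pair.1 hu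
    have : u = a • x + b • z := by
      have e := congrArg (g⁻¹ : EG Q).1.1 hab
      rw [eg_inv', map_add, map_smul, map_smul, ← g1, ← g2, eg_inv', eg_inv'] at e
      exact e.symm
    rw [this]
    exact Submodule.mem_span_pair.2 ⟨a, b, rfl⟩

/-- the stabiliser is transitive on the points of the line -/
theorem line_trans (B : Big Q) {x x' z z' : V} (h : OP Q x x' z z') {y : V} (hy : y ∈ Submodule.span F {x, z}) (hy0 : y ≠ 0) :
    ∃ (g : EG Q) (c : F), c ≠ 0 ∧ StabL Q x z g ∧ y = c • g.1.1 x := by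
  obtain ⟨a, b, rfl⟩ := Submodule.mem_span_pair.1 hy
  have hs := h.symm
  have hxm : x ∈ Submodule.span F {x, z} := Submodule.subset_span (by simp)
  have hzm : z ∈ Submodule.span F {x, z} := Submodule.subset_span (by simp)
  by_cases hb : b = 0
  · subst hb
    rw [zero_smul, add_zero] at hy0 ⊢
    refine ⟨1, a, ?_, fun y => Iff.rfl, rfl⟩
    rintro rfl
    exact hy0 (zero_smul _ _)
  · have h' : OP Q (a • x + b • z) (b⁻¹ • z') ((-b⁻¹) • x) ((-b) • x' + a • z') := by
      have bb : b * b⁻¹ = 1 := mul_inv_cancel₀ hb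
      refine ⟨⟨?_, ?_, ?_⟩, ⟨?_, ?_, ?_⟩, ?_, ?_, ?_, ?_⟩
      · rw [qadd, qsmul, qsmul, h.h1.1, h.h2.1, QuadraticMap.polar_smul_left, QuadraticMap.polar_smul_right, h.xz]
        simp
      · rw [qsmul, h.h2.2.1, mul_zero]
      · simp only [QuadraticMap.polar_add_left, QuadraticMap.polar_smul_left, QuadraticMap.polar_smul_right, h.xz', h.h2.2.2,
          smul_eq_mul]
        field_simp
        simp
      · rw [qsmul, h.h1.1, mul_zero]
      · rw [qadd, qsmul, qsmul, h.h1.2.1, h.h2.2.1, QuadraticMap.polar_smul_left, QuadraticMap.polar_smul_right, h.x'z']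
        simp
      · simp only [QuadraticMap.polar_add_right, QuadraticMap.polar_smul_left, QuadraticMap.polar_smul_right, h.xz', h.h1.2.2,
          smul_eq_mul]
        field_simp
        simp
      · simp only [QuadraticMap.polar_add_left, QuadraticMap.polar_smul_left, QuadraticMap.polar_smul_right, h.h1.ee, hs.xz,
          smul_eq_mul]
        ring
      · simp only [QuadraticMap.polar_add_left, QuadraticMap.polar_add_right, QuadraticMap.polar_smul_left,
          QuadraticMap.polar_smul_right, h.h1.2.2, h.xz', hs.xz', h.h2.2.2, smul_eq_mul]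
        ring
      · simp only [QuadraticMap.polar_smul_left, QuadraticMap.polar_smul_right, hs.x'z, smul_eq_mul]
        ring
      · simp only [QuadraticMap.polar_add_right, QuadraticMap.polar_smul_left,
          QuadraticMap.polar_smul_right, hs.x'z', h.h2.ff, smul_eq_mul]
        ring
    obtain ⟨g, g1, g2, g3, g4⟩ := B.conj_OP h h'
    refine ⟨g, 1, one_ne_zero, ?_, by rw [one_smul, g1]⟩
    refine OP.stabL h h' hy (Submodule.smul_mem _ _ hxm) ?_ ?_ g1 g3
    · refine Submodule.mem_span_pair.2 ⟨0, -b, ?_⟩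
      rw [zero_smul, zero_add, smul_smul]
      rw [show -b * -b⁻¹ = 1 by rw [neg_mul_neg]; exact mul_inv_cancel₀ hb, one_smul]
    · refine Submodule.mem_span_pair.2 ⟨b⁻¹, a, ?_⟩
      rw [smul_add, smul_smul, smul_smul, smul_smul, inv_mul_cancel₀ hb, one_smul]
      module

end line

end CfsgLib.Ow
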