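import Cfsg.Agent.LibOw8

set_option autoImplicit false
set_option linter.unusedSectionVars false

/-! The collinear trace, continued (helper26). -/

namespace CfsgLib.Ow

open Cfsg.Agent.H22 Module CfsgLib.Wt CfsgLib.WtQ CfsgLib.WtSp CfsgLib.SLw

section line
variable {F V : Type*} [Field F] [Finite F] [AddCommGroup V] [Module F V] [FiniteDimensional F V] {Q : QuadraticForm F V}
  {E : Type*} [AddCommGroup E] [Module ℂ E] {ρ : Representation ℂ (EG Q) E} {ψ : AddChar F ℂ}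

theorem sum_pw (B : Big Q) (hψ : ψ ≠ 1) {x x' : V} (h : HP Q x x') : ∑ r : perp2 Q x x', pw ρ ψ h (r : V) = 1 := by
  rw [← sum_pr_eq_one ρ (jx h)]
  exact Fintype.sum_bijective _ (chi_bij hψ (perp2 Q x x') (perp2_nondeg B.hQ h)) _ _ (fun r => rfl)

theorem ex_mul_pw (B : Big Q) (hψ : ψ ≠ 1) {x x' : V} (h : HP Q x x') {r : V} (hr : r ∈ perp2 Q x x') (hr0 : r ≠ 0) :
    ex ρ x * pw ρ ψ h r = 0 := by
  rw [ex_eq ρ h]
  exact (avx_mul hψ h le_rfl r).2 (fun hc => hr0 (perp2_nondeg B.hQ h r hr hc))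

theorem El_zero_left (w : V) : El Q (0 : V) w = 1 := by
  have h : Q (0 : V) = 0 := QuadraticMap.map_zero Q
  apply eg_ext
  intro a
  rw [El_apply h (QuadraticMap.polar_zero_left _ _)]
  simp

variable [FiniteDimensional ℂ E]

theorem fixB (B : Big Q) (h1 : One Q ρ ψ) {x x' z : V} (h : HP Q x x') (hz : z ∈ perp2 Q x x')
    (hQz : Q z = 0) {r : V} (hr0 : r ≠ 0) (hrz : r ∈ Submodule.span F {z}) {v : E} (hv : v ∈ wx ρ ψ h r) {w : V}
    (hw : w ∈ px Q z ⊓ px Q x) : ρ (El Q z w) v = v := by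
  obtain ⟨c, rfl⟩ := Submodule.mem_span_singleton.1 hrz
  have hr : c • z ∈ perp2 Q x x' := Submodule.smul_mem _ _ hz
  have hQr : Q (c • z) = 0 := by rw [qsmul, hQz, mul_zero]
  have hzx : QuadraticMap.polar Q z x = 0 := polar_c Q hz.1
  have hxw : QuadraticMap.polar Q x w = 0 := hw.2
  have hzw : QuadraticMap.polar Q z w = 0 := hw.1
  have hone := (h1 x x' h _ hr hr0).1 hQr
  have hw0 : w - QuadraticMap.polar Q x' w • x ∈ perp2 Q x x' := by
    constructor
    · rw [QuadraticMap.polar_sub_right, QuadraticMap.polar_smul_right, h.ee, smul_zero, sub_zero, hxw]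
    · rw [QuadraticMap.polar_sub_right, QuadraticMap.polar_smul_right, h.fe, smul_eq_mul, mul_one, sub_self]
  have e1 : QuadraticMap.polar Q z (w - QuadraticMap.polar Q x' w • x) = 0 := by
    rw [QuadraticMap.polar_sub_right, QuadraticMap.polar_smul_right, hzx, smul_zero, sub_zero, hzw]
  set β := QuadraticMap.polar Q x' w with hβ
  have e2 : QuadraticMap.polar Q z (β • x) = 0 := by
    rw [QuadraticMap.polar_smul_right, hzx, smul_zero]
  have e3 : Q (β • x) = 0 := by rw [qsmul, h.1, mul_zero]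
  have e4 : QuadraticMap.polar Q x (-z) = 0 := by rw [QuadraticMap.polar_neg_right, hz.1, neg_zero]
  have : El Q z w = El Q z (w - β • x) * El Q z (β • x) := by
    rw [El_add hQz e1 e2, sub_add_cancel]
  have hbx : ρ (El Q z (β • x)) v = v := by
    rw [El_swap hQz e3 e2, El_scale β h.1 e4, (mem_wx ρ ψ).1 hv _ (Submodule.smul_mem _ _ (Submodule.neg_mem _ hz))]
    rw [QuadraticMap.polar_smul_right, QuadraticMap.polar_neg_right, QuadraticMap.polar_smul_left, pself, hQz]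
    simp
  rw [this, map_mul, Module.End.mul_apply, hbx]
  refine triv B h hr hr0 hQr hone hz hw0 hQz ?_ ?_ e1 hv
  · rw [QuadraticMap.polar_smul_right, pself, hQz]; simp
  · rw [QuadraticMap.polar_smul_right, QuadraticMap.polar_comm, e1, smul_zero]

/-- scaling the second pair -/
theorem OP.scale {x x' z z' : V} (h : OP Q x x' z z') {c : F} (hc : c ≠ 0) : OP Q x x' (c • z) (c⁻¹ • z') where
  h1 := h.h1
  h2 := ⟨by rw [qsmul, h.h2.1, mul_zero], by rw [qsmul, h.h2.2.1, mul_zero], by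
    rw [QuadraticMap.polar_smul_left, QuadraticMap.polar_smul_right, h.h2.2.2, smul_eq_mul, smul_eq_mul, mul_one,
      mul_inv_cancel₀ hc]⟩
  xz := by rw [QuadraticMap.polar_smul_right, h.xz, smul_zero]
  xz' := by rw [QuadraticMap.polar_smul_right, h.xz', smul_zero]
  x'z := by rw [QuadraticMap.polar_smul_right, h.x'z, smul_zero]
  x'z' := by rw [QuadraticMap.polar_smul_right, h.x'z', smul_zero]

theorem line_mu (B : Big Q) (h1 : One Q ρ ψ) {x x' z z' : V} (h : OP Q x x' z z') (hz0 : z ≠ 0) :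
    ∃ μ : ℂ, ∀ c : F, c ≠ 0 → SL ρ x z * pw ρ ψ h.h1 (c • z) = μ • pw ρ ψ h.h1 (c • z) := by
  have hxm : x ∈ Submodule.span F {x, z} := Submodule.subset_span (by simp)
  have hzm : z ∈ Submodule.span F {x, z} := Submodule.subset_span (by simp)
  have hpres : ∀ r, ∀ v ∈ wx ρ ψ h.h1 r, SL ρ x z v ∈ wx ρ ψ h.h1 r := by
    intro r v hv
    rw [mem_wx] at hv ⊢
    intro w hw
    have := SL_comm (ρ := ρ) h.h1.1 h.h2.1 h.xz (El_stab h.h1.1 h.h2.1 h.xz hxm (w := w) hw.1)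
    have e := LinearMap.congr_fun this v
    rw [Module.End.mul_apply, Module.End.mul_apply, hv w hw, map_smul] at e
    exact e
  have hone := (h1 x x' h.h1 z (mem_perp_of h).1 hz0).1 h.h2.1
  obtain ⟨v₀, hv₀, hall⟩ := finrank_eq_one_iff'.mp hone
  obtain ⟨μ, hμ⟩ := hall ⟨SL ρ x z v₀, hpres z _ v₀.2⟩
  have hμ' : SL ρ x z (v₀ : E) = μ • (v₀ : E) := (congrArg Subtype.val hμ).symm
  have key : ∀ v ∈ wx ρ ψ h.h1 z, SL ρ x z v = μ • v := by
    intro v hv
    obtain ⟨a, ha⟩ := hall ⟨v, hv⟩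
    have ha' : v = a • (v₀ : E) := (congrArg Subtype.val ha).symm
    rw [ha', map_smul, hμ', smul_comm]
  refine ⟨μ, fun c hc => ?_⟩
  obtain ⟨g, g1, g2, g3, g4⟩ := B.conj_OP h (h.scale hc)
  have hst : StabL Q x z g := by
    refine OP.stabL h (h.scale hc) hxm (Submodule.smul_mem _ _ hzm) (Submodule.subset_span (by simp)) ?_ g1 g3
    refine Submodule.mem_span_pair.2 ⟨0, c⁻¹, ?_⟩
    rw [zero_smul, zero_add, smul_smul, inv_mul_cancel₀ hc, one_smul]
  apply LinearMap.ext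
  intro u
  rw [Module.End.mul_apply, LinearMap.smul_apply]
  set v := pw ρ ψ h.h1 (c • z) u with hv
  have hvm : v ∈ wx ρ ψ h.h1 (c • z) := pw_range h.h1 _ u
  have i1 : (g⁻¹ : EG Q).1.1 x = x := by
    have := eg_inv' g x
    rwa [g1] at this
  have i2 : (g⁻¹ : EG Q).1.1 x' = x' := by
    have := eg_inv' g x'
    rwa [g2] at this
  have i3 : (g⁻¹ : EG Q).1.1 (c • z) = z := by
    have := eg_inv' g z
    rwa [g3] at this
  have hm := wx_stab ρ ψ h.h1 g⁻¹ i1 i2 hvm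
  rw [i3] at hm
  have e1 := key _ hm
  have e2 := SL_comm (ρ := ρ) h.h1.1 h.h2.1 h.xz hst
  have e3 := LinearMap.congr_fun e2 (ρ g⁻¹ v)
  rw [Module.End.mul_apply, Module.End.mul_apply, e1, map_smul, rho_cancel] at e3
  exact e3.symm

theorem line_main (B : Big Q) (hψ : ψ ≠ 1) (h1 : One Q ρ ψ) {x x' z z' : V} (h : OP Q x x' z z') :
    ∃ μ : ℂ, SL ρ x z * eQ ρ x z = μ • (eQ ρ x z - pH ρ x z) + (Fintype.card (Ln F x z) : ℂ) • pH ρ x z := by
  have hz0 : z ≠ 0 := h.h2.ne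
  have hxm : x ∈ Submodule.span F {x, z} := Submodule.subset_span (by simp)
  have hzm : z ∈ Submodule.span F {x, z} := Submodule.subset_span (by simp)
  have hx := h.h1.1
  have hz := h.h2.1
  have hxz := h.xz
  have hzW := (mem_perp_of h).1
  obtain ⟨μ, hμ⟩ := line_mu B h1 h hz0
  refine ⟨μ, ?_⟩
  have hxz' : x ∈ px Q z := (QuadraticMap.polar_comm Q z x).trans hxz
  have hA : ∀ r, av ρ x (px Q x ⊓ px Q z) * pw ρ ψ h.h1 r =
      av ρ x (perp2 Q x x' ⊓ px Q z) * pw ρ ψ h.h1 r := fun r => by rw [av_partner ρ h.h1 _ hxz']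
  have hN1 : ∀ r ∈ perp2 Q x x', r ∉ Submodule.span F {z} → eQ ρ x z * pw ρ ψ h.h1 r = 0 := by
    intro r hr hrz
    rw [← eQ_eq hx hz hxz, eAB_comm hx hz hxz, mul_assoc, hA,
      (avx_mul hψ h.h1 inf_le_left r).2 (fun hc => hrz (dbl B h.h1 hzW hz0 hz hr hc)), mul_zero]
  have hN2 : ∀ c : F, c ≠ 0 → eQ ρ x z * pw ρ ψ h.h1 (c • z) = pw ρ ψ h.h1 (c • z) := by
    intro c hc
    have e1 : av ρ x (px Q x ⊓ px Q z) * pw ρ ψ h.h1 (c • z) = pw ρ ψ h.h1 (c • z) := by
      rw [hA]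
      refine (avx_mul hψ h.h1 inf_le_left _).1 ?_
      intro w hw
      rw [QuadraticMap.polar_smul_left, show QuadraticMap.polar Q z w = 0 from hw.2, smul_zero]
    rw [← eQ_eq hx hz hxz, eAB_comm hx hz hxz, mul_assoc, e1]
    refine av_mul_pw_of_fix h.h1 ?_
    intro v hv w hw
    exact fixB B h1 h.h1 hzW hz (smul_ne_zero hc hz0) (Submodule.mem_span_singleton.2 ⟨c, rfl⟩) hv hw
  have hP1 : ∀ r ∈ perp2 Q x x', r ≠ 0 → pH ρ x z * pw ρ ψ h.h1 r = 0 := by
    intro r hr hr0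
    rw [← pH_ex (ρ := ρ) hxm, mul_assoc, ex_mul_pw B hψ h.h1 hr hr0, mul_zero]
  set N := eQ ρ x z - pH ρ x z with hN
  set D := SL ρ x z * N - μ • N with hD
  have hDpw : ∀ r ∈ perp2 Q x x', r ≠ 0 → D * pw ρ ψ h.h1 r = 0 := by
    intro r hr hr0
    by_cases hrz : r ∈ Submodule.span F {z}
    · obtain ⟨c, rfl⟩ := Submodule.mem_span_singleton.1 hrz
      have hc : c ≠ 0 := by
        rintro rfl
        exact hr0 (zero_smul _ _)
      have e : N * pw ρ ψ h.h1 (c • z) = pw ρ ψ h.h1 (c • z) := by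
        rw [hN, sub_mul, hN2 c hc, hP1 _ hr hr0, sub_zero]
      rw [hD, sub_mul, mul_assoc, smul_mul_assoc, e, hμ c hc, sub_self]
    · have e : N * pw ρ ψ h.h1 r = 0 := by
        rw [hN, sub_mul, hN1 r hr hrz, hP1 r hr hr0, sub_zero]
      rw [hD, sub_mul, mul_assoc, smul_mul_assoc, e, mul_zero, smul_zero, sub_zero]
  have hDx : D = D * ex ρ x := by
    have e := sum_pw (ρ := ρ) B hψ h.h1
    calc D = D * ∑ r : perp2 Q x x', pw ρ ψ h.h1 (r : V) := by rw [e, mul_one]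
      _ = ∑ r : perp2 Q x x', D * pw ρ ψ h.h1 (r : V) := Finset.mul_sum _ _ _
      _ = D * pw ρ ψ h.h1 ((0 : perp2 Q x x') : V) := by
          refine Finset.sum_eq_single (0 : perp2 Q x x') (fun r _ hr => ?_) (fun hc => absurd (Finset.mem_univ _) hc)
          exact hDpw r r.2 (fun h0 => hr (Subtype.ext h0))
      _ = D * ex ρ x := by rw [Submodule.coe_zero, pw_zero]
  have hNg : ∀ g : EG Q, StabL Q x z g → ρ g * N = N * ρ g := by
    intro g hg
    rw [hN, mul_sub, sub_mul, eQ_comm hx hz hxz hg, pH_comm hx hz hxz hg]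
  have hDg : ∀ g : EG Q, StabL Q x z g → ρ g * D = D * ρ g := by
    intro g hg
    rw [hD, mul_sub, sub_mul, mul_smul_comm, smul_mul_assoc, hNg g hg, ← mul_assoc, SL_comm hx hz hxz hg, mul_assoc, hNg g hg,
      mul_assoc]
  have hDy : ∀ y ∈ Submodule.span F {x, z}, y ≠ 0 → ex ρ y * D = D := by
    intro y hy hy0
    rw [ex_comm_of hx hz hxz hy hDg]
    obtain ⟨g, c, hc, hg, hyg⟩ := line_trans B h hy hy0
    have hQg : Q (g.1.1 x) = 0 := by rw [og_Q, hx]
    rw [hyg, ex_scale ρ hQg c hc]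
    have e1 : D * ρ g = D * ex ρ (g.1.1 x) * ρ g := by
      rw [mul_assoc, ← ex_conj ρ g hx, ← mul_assoc, ← hDg g hg, mul_assoc, ← hDx]
    have e2 := congrArg (fun T => T * ρ g⁻¹) e1
    simp only [mul_assoc, ← map_mul, mul_inv_cancel, map_one, mul_one] at e2
    exact e2.symm
  have hpD : pH ρ x z * D = D := by
    refine avG_mul_of_fix (fix_closure ?_)
    rintro _ ⟨y, hy, w, hw, rfl⟩
    by_cases hy0 : y = 0
    · rw [hy0, El_zero_left, map_one, one_mul]
    · rw [← hDy y hy hy0, ← mul_assoc, ex_absorb' (line_sing hx hz hxz hy hy).1 hw]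
  have hpN : pH ρ x z * N = 0 := by
    rw [hN, mul_sub, pH_eQ hx hz hxz, show pH ρ x z * pH ρ x z = pH ρ x z from avG_idem _, sub_self]
  have hD0 : D = 0 := by
    rw [← hpD, hD, mul_sub, ← mul_assoc, pH_SL, smul_mul_assoc, mul_smul_comm, hpN, smul_zero, smul_zero, sub_zero]
  have hSN : SL ρ x z * N = μ • N := by
    rw [hD, sub_eq_zero] at hD0
    exact hD0
  have : eQ ρ x z = N + pH ρ x z := by rw [hN, sub_add_cancel]
  nth_rewrite 1 [this]
  rw [mul_add, hSN, SL_pH]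

end line

end CfsgLib.Ow
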