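import Cfsg.Agent.LibOy9

set_option autoImplicit false
set_option linter.unusedSectionVars false

/-! Trace identities on a line (helper26). -/

namespace CfsgLib.Oy

open Cfsg.Agent.H22 Module CfsgLib.Wt CfsgLib.WtQ CfsgLib.WtSp CfsgLib.SLw

section line
variable {F V : Type*} [Field F] [Finite F] [AddCommGroup V] [Module F V] [FiniteDimensional F V] {Q : QuadraticForm F V}
  {E : Type*} [AddCommGroup E] [Module ℂ E] {ρ : Representation ℂ (EG Q) E} {ψ : AddChar F ℂ}

omit [Finite F] [FiniteDimensional F V] in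
theorem OP.indep {x x' z z' : V} (h : OP Q x x' z z') : LinearIndependent F ![x, z] := by
  rw [LinearIndependent.pair_iff]
  intro a b hab
  have h1 := congrArg (QuadraticMap.polar Q x') hab
  have h2 := congrArg (QuadraticMap.polar Q z') hab
  simp only [QuadraticMap.polar_add_right, QuadraticMap.polar_smul_right, h.h1.fe, h.x'z, h.symm.x'z, h.h2.fe,
    QuadraticMap.polar_zero_right, smul_eq_mul, mul_one, mul_zero, add_zero, zero_add] at h1 h2
  exact ⟨h1, h2⟩

theorem card_line {x x' z z' : V} (h : OP Q x x' z z') : Nat.card (Submodule.span F {x, z}) = Nat.card F ^ 2 := by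
  have hsp : Submodule.span F {x, z} = Submodule.span F (Set.range ![x, z]) := by
    congr 1
    ext y
    simp [eq_comm, or_comm]
  rw [hsp, Module.natCard_eq_pow_finrank (K := F), finrank_span_eq_card h.indep, Fintype.card_fin]

theorem card_Ln {x x' z z' : V} (h : OP Q x x' z z') : Fintype.card (Ln F x z) + 1 = Nat.card F ^ 2 := by
  haveI := finV F V
  rw [← card_line h, ← Nat.card_eq_fintype_card]
  have : Nat.card (Submodule.span F {x, z}) = Nat.card (Option (Ln F x z)) := by
    classical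
    refine Nat.card_congr ⟨fun y => if hy : y.1 = 0 then none else some ⟨y.1, y.2, hy⟩,
      fun o => match o with | none => 0 | some y => ⟨y.1, y.2.1⟩, ?_, ?_⟩
    · intro y
      by_cases hy : y.1 = 0
      · simp only [hy, dif_pos]
        exact (Subtype.ext hy).symm
      · simp only [hy, dif_neg, not_false_eq_true]
    · intro o
      match o with
      | none => simp
      | some y =>
        have : (y.1 : V) ≠ 0 := y.2.2
        simp only [this, dif_neg, not_false_eq_true]
        rfl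
  rw [this, Finite.card_option]

/-- nonzero multiples -/
theorem card_mult {x x' z z' : V} (h : OP Q x x' z z') :
    Nat.card {y : Ln F x z // y.1 ∈ Submodule.span F {x}} + 1 = Nat.card F := by
  have h1 : Nat.card {y : Ln F x z // y.1 ∈ Submodule.span F {x}} = Nat.card {y : V // y ∈ Submodule.span F {x} ∧ y ≠ 0} := by
    refine Nat.card_congr ⟨fun y => ⟨y.1.1, y.2, y.1.2.2⟩, fun y => ⟨⟨y.1, ?_, y.2.2⟩, y.2.1⟩, fun _ => rfl, fun _ => rfl⟩
    exact Submodule.span_mono (by simp) y.2.1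
  haveI := finV F V
  rw [h1, ← card_span (F := F) h.h1.ne]
  have : Nat.card (Submodule.span F {x}) = Nat.card (Option {y : V // y ∈ Submodule.span F {x} ∧ y ≠ 0}) := by
    classical
    refine Nat.card_congr ⟨fun y => if hy : y.1 = 0 then none else some ⟨y.1, y.2, hy⟩,
      fun o => match o with | none => 0 | some y => ⟨y.1, y.2.1⟩, ?_, ?_⟩
    · intro y
      by_cases hy : y.1 = 0
      · simp only [hy, dif_pos]
        exact (Subtype.ext hy).symm
      · simp only [hy, dif_neg, not_false_eq_true]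
    · intro o
      match o with
      | none => simp
      | some y =>
        have : (y.1 : V) ≠ 0 := y.2.2
        simp only [this, dif_neg, not_false_eq_true]
  rw [this, Finite.card_option]

variable [FiniteDimensional ℂ E]

/-- the trace of the averages on `Z` -/
theorem trace_ex_eQ (B : Big Q) {x x' z z' : V} (h : OP Q x x' z z') {y : V} (hy : y ∈ Submodule.span F {x, z}) (hy0 : y ≠ 0) :
    LinearMap.trace ℂ E (ex ρ y * eQ ρ x z) = LinearMap.trace ℂ E (ex ρ x * eQ ρ x z) := by
  obtain ⟨g, c, hc, hg, hyg⟩ := line_trans B h hy hy0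
  have hQg : Q (g.1.1 x) = 0 := by rw [og_Q, h.h1.1]
  rw [hyg, ex_scale ρ hQg c hc]
  symm
  apply trace_conj' ρ g
  rw [← mul_assoc, ex_conj ρ g h.h1.1, mul_assoc, eQ_comm h.h1.1 h.h2.1 h.xz hg, mul_assoc]

theorem ex_eA {x z : V} (hx : Q x = 0) : ex ρ x * av ρ x (px Q x ⊓ px Q z) = ex ρ x :=
  mul_av_of (fun _ hw => ex_absorb hx hw.1)

theorem eB_ex {x z : V} (hz : Q z = 0) : av ρ z (px Q z ⊓ px Q x) * ex ρ z = ex ρ z :=
  av_mul_of (fun _ hw => ex_absorb' hz hw.1)

theorem ex_ex {x z : V} (hx : Q x = 0) (hz : Q z = 0) (hxz : QuadraticMap.polar Q x z = 0) :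
    ex ρ x * eQ ρ x z * ex ρ z = ex ρ x * ex ρ z := by
  rw [← eQ_eq hx hz hxz, ← mul_assoc, ex_eA hx, mul_assoc, eB_ex hz]

theorem ex_eQ_comm {x z : V} (hx : Q x = 0) (hz : Q z = 0) (hxz : QuadraticMap.polar Q x z = 0) {y : V}
    (hy : y ∈ Submodule.span F {x, z}) : ex ρ y * eQ ρ x z = eQ ρ x z * ex ρ y :=
  ex_comm_of hx hz hxz hy (fun _ hg => eQ_comm hx hz hxz hg)

theorem trace_two (B : Big Q) {x x' z z' : V} (h : OP Q x x' z z') {y : V} (hy : y ∈ Submodule.span F {x, z})
    (hyx : y ∉ Submodule.span F {x}) :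
    LinearMap.trace ℂ E (ex ρ x * (ex ρ y * eQ ρ x z)) = LinearMap.trace ℂ E (ex ρ x * ex ρ z) := by
  have hx := h.h1.1
  have hz := h.h2.1
  have hxz := h.xz
  have hxm : x ∈ Submodule.span F {x, z} := Submodule.subset_span (by simp)
  have hzm : z ∈ Submodule.span F {x, z} := Submodule.subset_span (by simp)
  obtain ⟨a, b, rfl⟩ := Submodule.mem_span_pair.1 hy
  have hb : b ≠ 0 := by
    rintro rfl
    apply hyx
    rw [zero_smul, add_zero]
    exact Submodule.smul_mem _ _ (Submodule.mem_span_singleton_self x)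
  -- scale to `z + c x`
  set c := b⁻¹ * a with hc
  have hyc : a • x + b • z = b • (z + c • x) := by
    rw [smul_add, smul_smul, hc, mul_inv_cancel_left₀ hb, add_comm]
  have hs := h.symm
  have hQc : Q (z + c • x) = 0 := by
    rw [qadd, qsmul, hz, hx, QuadraticMap.polar_smul_right, hs.xz]
    simp
  rw [hyc, ex_scale ρ hQc b hb]
  have h' : OP Q x (x' - c • z') (z + c • x) z' := by
    refine ⟨⟨hx, ?_, ?_⟩, ⟨hQc, h.h2.2.1, ?_⟩, ?_, h.xz', ?_, ?_⟩
    · rw [qsub, qsmul, h.h1.2.1, h.h2.2.1, QuadraticMap.polar_smul_right, h.x'z']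
      simp
    · rw [QuadraticMap.polar_sub_right, QuadraticMap.polar_smul_right, h.h1.2.2, h.xz', smul_zero, sub_zero]
    · rw [QuadraticMap.polar_add_left, QuadraticMap.polar_smul_left, h.h2.2.2, h.xz', smul_zero, add_zero]
    · rw [QuadraticMap.polar_add_right, QuadraticMap.polar_smul_right, h.xz, h.h1.ee, smul_zero, add_zero]
    · simp only [QuadraticMap.polar_sub_left, QuadraticMap.polar_add_right, QuadraticMap.polar_smul_left,
        QuadraticMap.polar_smul_right, h.x'z, h.h1.fe, h.h2.fe, hs.x'z, smul_eq_mul]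
      ring
    · rw [QuadraticMap.polar_sub_left, QuadraticMap.polar_smul_left, h.x'z', h.h2.ff, smul_zero, sub_zero]
  obtain ⟨g, g1, g2, g3, g4⟩ := B.conj_OP h h'
  have hst : StabL Q x z g := by
    refine OP.stabL h h' hxm (Submodule.add_mem _ hzm (Submodule.smul_mem _ _ hxm)) (Submodule.subset_span (by simp)) ?_ g1 g3
    refine Submodule.mem_span_pair.2 ⟨-c, 1, ?_⟩
    module
  have e1 : LinearMap.trace ℂ E (ex ρ x * (ex ρ z * eQ ρ x z)) = LinearMap.trace ℂ E (ex ρ x * (ex ρ (z + c • x) * eQ ρ x z)) := by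
    apply trace_conj' ρ g
    rw [← mul_assoc, ex_conj ρ g hx, g1, mul_assoc, ← mul_assoc (ρ g), ex_conj ρ g hz, g3, mul_assoc (ex ρ (z + c • x)),
      eQ_comm hx hz hxz hst, mul_assoc, mul_assoc]
  rw [← e1, ex_eQ_comm hx hz hxz hzm, ← mul_assoc, ex_ex hx hz hxz]

theorem line_traces (B : Big Q) (hψ : ψ ≠ 1) (h1 : One Q ρ ψ) {x x' z z' : V} (h : OP Q x x' z z') :
    ∃ (μ : ℂ) (m k : ℕ), LinearMap.trace ℂ E (av ρ z (px Q z ⊓ px Q x) * ex ρ x) = (m : ℂ) + k ∧
      ((Nat.card F : ℂ) ^ 2 - 1) * k = μ * (k + (LinearMap.trace ℂ E (eQ ρ x z) - (m + k))) ∧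
      ((Nat.card F : ℂ) - 1) * (m + k) + ((Nat.card F : ℂ) ^ 2 - Nat.card F) * LinearMap.trace ℂ E (ex ρ x * ex ρ z) =
        μ * k + ((Nat.card F : ℂ) ^ 2 - 1) * m := by
  have hx := h.h1.1
  have hz := h.h2.1
  have hxz := h.xz
  have hxm : x ∈ Submodule.span F {x, z} := Submodule.subset_span (by simp)
  obtain ⟨μ, hμ⟩ := line_main B hψ h1 h
  have hcard : (Fintype.card (Ln F x z) : ℂ) = (Nat.card F : ℂ) ^ 2 - 1 := by
    have := card_Ln h
    rw [eq_sub_iff_add_eq]
    exact_mod_cast this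
  -- the idempotents
  have hT : (ex ρ x * eQ ρ x z) * (ex ρ x * eQ ρ x z) = ex ρ x * eQ ρ x z := by
    rw [mul_assoc, ← mul_assoc (eQ ρ x z), ← ex_eQ_comm hx hz hxz hxm, mul_assoc (ex ρ x) (eQ ρ x z) (eQ ρ x z),
      show eQ ρ x z * eQ ρ x z = eQ ρ x z from avG_idem _, ← mul_assoc, ex_idem hx]
  have hP : pH ρ x z * pH ρ x z = pH ρ x z := avG_idem _
  have t1 := trace_idem (E := E) hT
  have t2 := trace_idem (E := E) hP
  have hle : LinearMap.range (pH ρ x z) ≤ LinearMap.range (ex ρ x * eQ ρ x z) := by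
    rintro _ ⟨v, rfl⟩
    refine ⟨pH ρ x z v, ?_⟩
    have : ex ρ x * eQ ρ x z * pH ρ x z = pH ρ x z := by rw [mul_assoc, eQ_pH, ex_pH hxm]
    exact LinearMap.congr_fun this v
  have hfr := Submodule.finrank_mono hle
  obtain ⟨k, hk⟩ := Nat.exists_eq_add_of_le hfr
  refine ⟨μ, finrank ℂ (LinearMap.range (pH ρ x z)), k, ?_, ?_, ?_⟩
  · rw [LinearMap.trace_mul_comm]
    have : ex ρ x * av ρ z (px Q z ⊓ px Q x) = ex ρ x * eQ ρ x z := by
      rw [← eQ_eq hx hz hxz, ← mul_assoc, ex_eA hx]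
    rw [this, t1, hk]
    push_cast
    ring
  · have e1 := congrArg (LinearMap.trace ℂ E) hμ
    have e2 : LinearMap.trace ℂ E (SL ρ x z * eQ ρ x z) = ((Nat.card F : ℂ) ^ 2 - 1) * ((finrank ℂ (LinearMap.range (pH ρ x z)) : ℂ) + k) := by
      unfold SL
      rw [Finset.sum_mul, map_sum, Finset.sum_congr rfl (fun y _ => trace_ex_eQ B h y.2.1 y.2.2), Finset.sum_const,
        Finset.card_univ, nsmul_eq_mul, hcard, t1, hk]
      push_cast
      ring
    rw [e2, map_add, map_smul, map_smul, map_sub, t2, smul_eq_mul, smul_eq_mul, hcard] at e1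
    linear_combination e1
  · have e1 := congrArg (fun T => LinearMap.trace ℂ E (ex ρ x * T)) hμ
    have e2 : LinearMap.trace ℂ E (ex ρ x * (SL ρ x z * eQ ρ x z)) = ((Nat.card F : ℂ) - 1) * ((finrank ℂ (LinearMap.range (pH ρ x z)) : ℂ) + k) +
        ((Nat.card F : ℂ) ^ 2 - Nat.card F) * LinearMap.trace ℂ E (ex ρ x * ex ρ z) := by
      classical
      unfold SL
      rw [Finset.sum_mul, Finset.mul_sum, map_sum]
      have hterm : ∀ y : Ln F x z, LinearMap.trace ℂ E (ex ρ x * (ex ρ y.1 * eQ ρ x z)) =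
          if y.1 ∈ Submodule.span F {x} then ((finrank ℂ (LinearMap.range (pH ρ x z)) : ℂ) + k) else
            LinearMap.trace ℂ E (ex ρ x * ex ρ z) := by
        intro y
        by_cases hy : y.1 ∈ Submodule.span F {x}
        · rw [if_pos hy]
          obtain ⟨c, hc⟩ := Submodule.mem_span_singleton.1 hy
          have hc0 : c ≠ 0 := by
            rintro rfl
            rw [zero_smul] at hc
            exact y.2.2 hc.symm
          rw [← hc, ex_scale ρ hx c hc0, ← mul_assoc, ex_idem hx, t1, hk]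
          push_cast
          ring
        · rw [if_neg hy]
          exact trace_two B h y.2.1 hy
      rw [Finset.sum_congr rfl (fun y _ => hterm y), Finset.sum_ite, Finset.sum_const, Finset.sum_const, nsmul_eq_mul, nsmul_eq_mul]
      have c1 : ((Finset.univ.filter fun y : Ln F x z => y.1 ∈ Submodule.span F {x}).card : ℂ) = (Nat.card F : ℂ) - 1 := by
        rw [← Fintype.card_subtype, ← Nat.card_eq_fintype_card, eq_sub_iff_add_eq]
        exact_mod_cast card_mult h
      have c2 : ((Finset.univ.filter fun y : Ln F x z => ¬ y.1 ∈ Submodule.span F {x}).card : ℂ) = (Nat.card F : ℂ) ^ 2 - Nat.card F := by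
        have := Finset.card_filter_add_card_filter_not (s := (Finset.univ : Finset (Ln F x z))) (fun y : Ln F x z => y.1 ∈ Submodule.span F {x})
        rw [Finset.card_univ] at this
        have h2 : ((Finset.univ.filter fun y : Ln F x z => y.1 ∈ Submodule.span F {x}).card : ℂ) +
          ((Finset.univ.filter fun y : Ln F x z => ¬ y.1 ∈ Submodule.span F {x}).card : ℂ) = (Fintype.card (Ln F x z) : ℂ) := by
          exact_mod_cast this
        rw [c1, hcard] at h2
        linear_combination h2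
      rw [c1, c2]
    rw [e2] at e1
    have e3 : LinearMap.trace ℂ E (ex ρ x * (μ • (eQ ρ x z - pH ρ x z) + (Fintype.card (Ln F x z) : ℂ) • pH ρ x z)) =
        μ * k + ((Nat.card F : ℂ) ^ 2 - 1) * (finrank ℂ (LinearMap.range (pH ρ x z)) : ℂ) := by
      rw [mul_add, mul_smul_comm, mul_smul_comm, mul_sub, ex_pH hxm, map_add, map_smul, map_smul, map_sub, t1, t2, hk, hcard,
        smul_eq_mul, smul_eq_mul]
      push_cast
      ring
    rw [e3] at e1
    exact e1

/-- the dimension of `Z` -/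
theorem trace_eQ (B : Big Q) (hψ : ψ ≠ 1) (h1 : One Q ρ ψ) {x x' z z' : V} (h : OP Q x x' z z') :
    LinearMap.trace ℂ E (eQ ρ x z) = (LinearMap.trace ℂ E (av ρ z (px Q z ⊓ px Q x) * ex ρ x) - 1) + Nat.card F := by
  have hx := h.h1.1
  have hz := h.h2.1
  have hxz := h.xz
  have hz0 : z ≠ 0 := h.h2.ne
  have hzW := (mem_perp_of h).1
  have hxz' : x ∈ px Q z := (QuadraticMap.polar_comm Q z x).trans hxz
  rw [trace_sum B hψ h.h1]
  have key : ∀ r : perp2 Q x x', LinearMap.trace ℂ E (eQ ρ x z * pw ρ ψ h.h1 r) =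
      (LinearMap.trace ℂ E (av ρ z (px Q z ⊓ px Q x) * ex ρ x) - 1) * ind ((r : V) = 0) + ind ((r : V) ∈ Submodule.span F {z}) := by
    intro r
    by_cases hrz : (r : V) ∈ Submodule.span F {z}
    · rw [ind_pos hrz]
      have e1 : av ρ x (px Q x ⊓ px Q z) * pw ρ ψ h.h1 (r : V) = pw ρ ψ h.h1 (r : V) := by
        rw [av_partner ρ h.h1 _ hxz']
        refine (avx_mul hψ h.h1 inf_le_left _).1 ?_
        intro w hw
        obtain ⟨c, hc⟩ := Submodule.mem_span_singleton.1 hrz
        rw [← hc, QuadraticMap.polar_smul_left, show QuadraticMap.polar Q z w = 0 from hw.2, smul_zero]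
      rw [← eQ_eq hx hz hxz, eAB_comm hx hz hxz, mul_assoc, e1]
      by_cases hr0 : (r : V) = 0
      · rw [ind_pos hr0, hr0, pw_zero]
        ring
      · rw [ind_neg hr0, av_mul_pw_of_fix h.h1 (fun v hv w hw => fixB B h1 h.h1 hzW hz hr0 hrz hv hw), trace_pw,
          (h1.1 x x' h.h1 r r.2 hr0).1]
        · simp
        · obtain ⟨c, hc⟩ := Submodule.mem_span_singleton.1 hrz
          rw [← hc, qsmul, hz, mul_zero]
    · have hr0 : (r : V) ≠ 0 := by
        intro h0
        rw [h0] at hrz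
        exact hrz (Submodule.zero_mem _)
      rw [ind_neg hrz, ind_neg hr0, mul_zero, add_zero, ← eQ_eq hx hz hxz, eAB_comm hx hz hxz, mul_assoc,
        av_partner ρ h.h1 _ hxz', (avx_mul hψ h.h1 inf_le_left r).2 (fun hc => hrz (dbl B h.h1 hzW hz0 hz r.2 hc)), mul_zero,
        map_zero]
  rw [Finset.sum_congr rfl (fun r _ => key r), Finset.sum_add_distrib, ← Finset.mul_sum, sum_ind_zero, mul_one,
    sum_ind_span _ hz0 hzW]

end line

end CfsgLib.Oy
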