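import Cfsg.Agent.LibOy11
import Cfsg.Agent.LibCharBasic

set_option autoImplicit false
set_option linter.unusedSectionVars false

/-! The sum over the singular vectors (helper26). -/

namespace CfsgLib.Oy

open Cfsg.Agent.H22 Module CfsgLib.Wt CfsgLib.WtQ CfsgLib.WtSp CfsgLib.SLw

section sg
variable {F V : Type*} [Field F] [Finite F] [AddCommGroup V] [Module F V] [FiniteDimensional F V] (Q : QuadraticForm F V)

/-- nonzero singular vectors -/
def Sg : Type _ := {y : V // y ≠ 0 ∧ Q y = 0}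

instance : Finite (Sg Q) := by
  haveI := finV F V
  exact inferInstanceAs (Finite {y : V // y ≠ 0 ∧ Q y = 0})

noncomputable instance : Fintype (Sg Q) := Fintype.ofFinite _

variable {Q}

theorem sum_Sg_ind (U : Submodule F V) : ∑ y : Sg Q, ind (y.1 ∈ U) = (nn Q U 0 : ℂ) - 1 := by
  classical
  haveI := finV F V
  unfold ind
  rw [Finset.sum_ite, Finset.sum_const_zero, add_zero, Finset.sum_const, nsmul_eq_mul, mul_one, eq_sub_iff_add_eq]
  have h1 : (Finset.univ.filter fun y : Sg Q => y.1 ∈ U).card + 1 = nn Q U 0 := by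
    rw [← Fintype.card_subtype, ← Nat.card_eq_fintype_card, ← Finite.card_option]
    unfold nn
    refine Nat.card_congr ⟨fun o => match o with | none => ⟨0, U.zero_mem, map_zero Q⟩ | some y => ⟨y.1.1, y.2, y.1.2.2⟩,
      fun y => if hy : y.1 = 0 then none else some ⟨⟨y.1, hy, y.2.2⟩, y.2.1⟩, ?_, ?_⟩
    · intro o
      match o with
      | none => simp
      | some y =>
        have : (y.1.1 : V) ≠ 0 := y.1.2.1
        simp only [this, dif_neg, not_false_eq_true]
        rfl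
    · intro y
      by_cases hy : y.1 = 0
      · simp only [hy, dif_pos]
        exact (Subtype.ext hy).symm
      · simp only [hy, dif_neg, not_false_eq_true]
  exact_mod_cast h1

theorem nn_sing {U : Submodule F V} (h : ∀ y ∈ U, Q y = 0) : nn Q U 0 = Nat.card U := by
  unfold nn
  exact Nat.card_congr ⟨fun y => ⟨y.1, y.2.1⟩, fun y => ⟨y.1, y.2, h y.1 y.2⟩, fun _ => rfl, fun _ => rfl⟩

theorem nn_line1 {x : V} (hx0 : x ≠ 0) (hx : Q x = 0) : nn Q (Submodule.span F {x}) 0 = Nat.card F := by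
  rw [nn_sing, card_span hx0]
  intro y hy
  obtain ⟨c, rfl⟩ := Submodule.mem_span_singleton.1 hy
  rw [qsmul, hx, mul_zero]

theorem nn_line2 {x x' z z' : V} (h : OP Q x x' z z') : nn Q (Submodule.span F {x, z}) 0 = Nat.card F ^ 2 := by
  rw [nn_sing, card_line h]
  intro y hy
  exact (line_sing h.h1.1 h.h2.1 h.xz hy hy).1

theorem card_Sg : ((Fintype.card (Sg Q) : ℕ) : ℂ) = (nn Q ⊤ 0 : ℂ) - 1 := by
  rw [← sum_Sg_ind (Q := Q) ⊤]
  have : ∀ y : Sg Q, ind (y.1 ∈ (⊤ : Submodule F V)) = 1 := fun y => ind_pos trivial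
  rw [Finset.sum_congr rfl (fun y _ => this y), Finset.sum_const, Finset.card_univ, nsmul_eq_mul, mul_one]

end sg

section rep
variable {F V : Type*} [Field F] [Finite F] [AddCommGroup V] [Module F V] [FiniteDimensional F V] {Q : QuadraticForm F V}
  {E : Type*} [AddCommGroup E] [Module ℂ E] (ρ : Representation ℂ (EG Q) E)

/-- the sum over the singular vectors -/
noncomputable def SS : E →ₗ[ℂ] E := ∑ y : Sg Q, ex ρ y.1

theorem SS_comm (g : EG Q) : ρ g * SS ρ = SS ρ * ρ g := by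
  unfold SS
  rw [Finset.mul_sum, Finset.sum_mul]
  let e : Sg Q ≃ Sg Q :=
    { toFun := fun y => ⟨g.1.1 y.1, fun h => y.2.1 (by rw [← eg_inv' g y.1, h, map_zero]), by rw [og_Q]; exact y.2.2⟩
      invFun := fun y => ⟨(g⁻¹ : EG Q).1.1 y.1, fun h => y.2.1 (by rw [← eg_inv g y.1, h, map_zero]), by rw [og_Q]; exact y.2.2⟩
      left_inv := fun y => Subtype.ext (eg_inv' g y.1)
      right_inv := fun y => Subtype.ext (eg_inv g y.1) }
  refine Fintype.sum_equiv e _ _ fun y => ?_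
  exact ex_conj ρ g y.2.2

theorem SS_scalar [ρ.IsIrreducible] [FiniteDimensional ℂ E] : ∃ μ : ℂ, SS ρ = μ • (1 : E →ₗ[ℂ] E) := by
  obtain ⟨c, hc⟩ := CfsgLib.CharBasic.schur_scalar ρ (SS ρ) (fun g v => (LinearMap.congr_fun (SS_comm ρ g) v).symm)
  exact ⟨c, hc⟩

variable [FiniteDimensional ℂ E] {ρ}

theorem tr_SS (B : Big Q) {x x' : V} (h : HP Q x x') :
    LinearMap.trace ℂ E (SS ρ) = ((nn Q ⊤ 0 : ℂ) - 1) * LinearMap.trace ℂ E (ex ρ x) := by
  unfold SS
  rw [map_sum]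
  have : ∀ y : Sg Q, LinearMap.trace ℂ E (ex ρ y.1) = LinearMap.trace ℂ E (ex ρ x) := by
    intro y
    obtain ⟨y', hy'⟩ := B.exists_HP y.2.1 y.2.2
    exact tr_ex ρ B hy' h
  rw [Finset.sum_congr rfl (fun y _ => this y), Finset.sum_const, Finset.card_univ, nsmul_eq_mul, card_Sg]

theorem tr_SS_ex (B : Big Q) {x x' z z' : V} (h : OP Q x x' z z') :
    LinearMap.trace ℂ E (SS ρ * ex ρ x) = ((Nat.card F : ℂ) - 1) * LinearMap.trace ℂ E (ex ρ x) +
      (Nat.card F * (nn Q (perp2 Q x x') 0 : ℂ) - Nat.card F) * LinearMap.trace ℂ E (ex ρ x * ex ρ z) +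
      ((nn Q ⊤ 0 : ℂ) - Nat.card F * (nn Q (perp2 Q x x') 0 : ℂ)) * LinearMap.trace ℂ E (ex ρ x' * ex ρ x) := by
  unfold SS
  rw [Finset.sum_mul, map_sum]
  have key : ∀ y : Sg Q, LinearMap.trace ℂ E (ex ρ y.1 * ex ρ x) = ind (y.1 ∈ Submodule.span F {x}) *
      (LinearMap.trace ℂ E (ex ρ x) - LinearMap.trace ℂ E (ex ρ x * ex ρ z)) + ind (y.1 ∈ px Q x) *
      (LinearMap.trace ℂ E (ex ρ x * ex ρ z) - LinearMap.trace ℂ E (ex ρ x' * ex ρ x)) + LinearMap.trace ℂ E (ex ρ x' * ex ρ x) := by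
    intro y
    by_cases h1 : y.1 ∈ px Q x
    · rw [ind_pos h1]
      by_cases h2 : y.1 ∈ Submodule.span F {x}
      · rw [ind_pos h2]
        obtain ⟨c, hc⟩ := Submodule.mem_span_singleton.1 h2
        have hc0 : c ≠ 0 := by
          rintro rfl
          rw [zero_smul] at hc
          exact y.2.1 hc.symm
        rw [← hc, ex_scale ρ h.h1.1 c hc0, ex_idem h.h1.1]
        ring
      · rw [ind_neg h2]
        have h1' : QuadraticMap.polar Q x y.1 = 0 := h1
        obtain ⟨y', x'', hop⟩ := B.exists_OP h2 h.h1.ne y.2.2 h.h1.1 (polar_c Q h1')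
        rw [tr_ex1 ρ B hop h]
        ring
    · rw [ind_neg h1]
      have h2 : y.1 ∉ Submodule.span F {x} := by
        intro hc
        apply h1
        obtain ⟨c, hc⟩ := Submodule.mem_span_singleton.1 hc
        change QuadraticMap.polar Q x y.1 = 0
        rw [← hc, QuadraticMap.polar_smul_right, h.h1.ee, smul_zero]
      rw [ind_neg h2]
      have hb : QuadraticMap.polar Q x y.1 ≠ 0 := h1
      have hh : HP Q x ((QuadraticMap.polar Q x y.1)⁻¹ • y.1) := by
        refine ⟨h.h1.1, ?_, ?_⟩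
        · rw [qsmul, y.2.2, mul_zero]
        · rw [QuadraticMap.polar_smul_right, smul_eq_mul, inv_mul_cancel₀ hb]
      have e := tr_ex2 ρ B h.h1 hh
      rw [ex_scale ρ y.2.2 _ (inv_ne_zero hb)] at e
      rw [e]
      ring
  rw [Finset.sum_congr rfl (fun y _ => key y), Finset.sum_add_distrib, Finset.sum_add_distrib, ← Finset.sum_mul, ← Finset.sum_mul,
    sum_Sg_ind, sum_Sg_ind, Finset.sum_const, Finset.card_univ, nsmul_eq_mul, card_Sg, nn_line1 h.h1.ne h.h1.1, nn_xperp h.h1]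
  push_cast
  ring

end rep

section vals
variable {F V : Type*} [Field F] [Finite F] [AddCommGroup V] [Module F V] [FiniteDimensional F V] {Q : QuadraticForm F V}
  {E : Type*} [AddCommGroup E] [Module ℂ E] {ρ : Representation ℂ (EG Q) E} {ψ : AddChar F ℂ} [FiniteDimensional ℂ E]

theorem OP.not_mem {x x' z z' : V} (h : OP Q x x' z z') : z ∉ Submodule.span F {x} := by
  intro hc
  obtain ⟨c, hc⟩ := Submodule.mem_span_singleton.1 hc
  have := h.h2.2.2
  rw [← hc, QuadraticMap.polar_smul_left, h.xz', smul_zero] at this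
  exact zero_ne_one this

theorem q_ne (F : Type*) [Field F] [Finite F] : (Nat.card F : ℂ) ≠ 0 := by
  exact_mod_cast (lt_of_lt_of_le two_pos (two_le_q F)).ne'

theorem q_sub (F : Type*) [Field F] [Finite F] : ((Nat.card F - 1 : ℕ) : ℂ) = (Nat.card F : ℂ) - 1 := by
  rw [Nat.cast_sub (le_trans one_le_two (two_le_q F)), Nat.cast_one]

theorem val1 (B : Big Q) (hψ : ψ ≠ 1) (h1 : One Q ρ ψ) {A n : ℕ} (N : Num Q A n) {x x' z z' : V} (h : OP Q x x' z z') :
    LinearMap.trace ℂ E (av ρ z (px Q z ⊓ px Q x) * ex ρ x) = LinearMap.trace ℂ E (ex ρ x) + 1 - n := by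
  have e1 := trA B hψ h1 h.h1 (mem_perp_of h).1 h.h2.ne h.h2.1
  have e2 := trA' B hψ h1 h.h1 (mem_perp_of h).1 h.h2.ne h.h2.1
  rw [tr_A ρ B h, e2, nn_W1z h, N.nW' h] at e1
  have hq := q_ne F
  push_cast at e1
  have : (Nat.card F : ℂ)⁻¹ * (Nat.card F * (n : ℂ)) = n := by field_simp
  linear_combination e1 - this

theorem val2 (B : Big Q) (hψ : ψ ≠ 1) (h1 : One Q ρ ψ) {A n : ℕ} (N : Num Q A n) {x x' z z' w w' : V} (h : OP Q x x' z z')
    (h2 : OP Q x x' w w') (h3 : OP Q z z' w w') :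
    LinearMap.trace ℂ E (av ρ z (Submodule.span F {w}) * ex ρ x) = LinearMap.trace ℂ E (ex ρ x) - ((Nat.card F : ℂ) - 1) * A := by
  have e1 := trR B hψ h1 h.h1 (mem_perp_of h).1
  have e2 := trR' B hψ h1 h.h1 (mem_perp_of h).1 h.h2.ne h.h2.1 (mem_perp_of h2).1 h3.not_mem h2.h2.1 h3.xz
  rw [tr_R ρ B h h3, e2, nn_W1z h, N.nW' h, nn_zw h h2 h3, N.nW h.h1] at e1
  have e3 := N.nW'' h h2 h3
  set n2 := nn Q (perp2 Q x x' ⊓ perp2 Q z z' ⊓ perp2 Q w w') 0
  have e3' : (n : ℂ) = Nat.card F * n2 + ((Nat.card F : ℂ) - 1) * A := by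
    rw [← q_sub F]
    exact_mod_cast e3
  have hq := q_ne F
  push_cast at e1
  rw [q_sub F] at e1
  have k1 : (1 - (Nat.card F : ℂ)⁻¹) * (Nat.card F * (Nat.card F * (n2 : ℂ))) = (Nat.card F - 1) * (Nat.card F * n2) := by
    field_simp
  have k2 : (Nat.card F : ℂ)⁻¹ * (Nat.card F * (n : ℂ) + (Nat.card F - 1) * ((Nat.card F : ℂ) ^ 2 * A)) =
      n + (Nat.card F - 1) * (Nat.card F * A) := by
    field_simp
  rw [k1, k2] at e1
  linear_combination e1 + (Nat.card F - 1 : ℂ) * e3'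

end vals

end CfsgLib.Oy
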