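import Cfsg.Agent.LibOy12

set_option autoImplicit false
set_option linter.unusedSectionVars false

/-! The master equation (helper26). -/

namespace CfsgLib.Oy

open Cfsg.Agent.H22 Module CfsgLib.Wt CfsgLib.WtQ CfsgLib.WtSp CfsgLib.SLw

section line
variable {F V : Type*} [Field F] [Finite F] [AddCommGroup V] [Module F V] [FiniteDimensional F V] {Q : QuadraticForm F V}
  {E : Type*} [AddCommGroup E] [Module ℂ E] {ρ : Representation ℂ (EG Q) E}

/-- Eichler elements of a line -/
theorem El_line {x z : V} (hx : Q x = 0) (hz : Q z = 0) (hxz : QuadraticMap.polar Q x z = 0) (a b a' b' β : F) :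
    El Q (a • x + b • z) (β • (a' • x + b' • z)) = El Q x ((β * (a * b' - b * a')) • z) := by
  have hxx : QuadraticMap.polar Q x x = 0 := by rw [pself, hx, mul_zero]
  have hzz : QuadraticMap.polar Q z z = 0 := by rw [pself, hz, mul_zero]
  have hzx := polar_c Q hxz
  have hw : β • (a' • x + b' • z) ∈ px Q x ⊓ px Q z := by
    constructor
    · change QuadraticMap.polar Q x _ = 0
      simp only [QuadraticMap.polar_smul_right, QuadraticMap.polar_add_right, hxx, hxz, smul_zero, add_zero]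
    · change QuadraticMap.polar Q z _ = 0
      simp only [QuadraticMap.polar_smul_right, QuadraticMap.polar_add_right, hzz, hzx, smul_zero, add_zero]
  have hQ : Q (β • (a' • x + b' • z)) = 0 := by
    rw [qsmul, qadd, qsmul, qsmul, hx, hz, QuadraticMap.polar_smul_left, QuadraticMap.polar_smul_right, hxz]
    simp
  rw [El_decomp hx hz hxz hw, hQ, mul_zero, neg_zero, zero_smul, El_zero x hx, one_mul]
  have e1 : a • β • (a' • x + b' • z) = (a * β * a') • x + (a * β * b') • z := by module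
  have e2 : b • β • (a' • x + b' • z) = (b * β * a') • x + (b * β * b') • z := by module
  have hc : ∀ (c : F) {y w : V}, QuadraticMap.polar Q y w = 0 → QuadraticMap.polar Q y (c • w) = 0 := by
    intro c y w h
    rw [QuadraticMap.polar_smul_right, h, smul_zero]
  rw [e1, e2, ← El_add hx (hc _ hxx) (hc _ hxz), ← El_add hz (hc _ hzx) (hc _ hzz), El_self _ hx, El_self _ hz, one_mul, mul_one]
  have e3 : El Q z ((b * β * a') • x) = El Q x ((-(b * β * a')) • z) := by
    rw [← El_scale _ hz hzx, El_swap (by rw [qsmul, hz, mul_zero]) hx (by rw [QuadraticMap.polar_smul_left, hzx, smul_zero]), neg_smul]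
  rw [e3, El_add hx (hc _ hxz) (hc _ hxz), ← add_smul]
  congr 2
  ring

theorem av_line {x z : V} (hx : Q x = 0) (hz : Q z = 0) (hxz : QuadraticMap.polar Q x z = 0) {a b a' b' : F}
    (hd : a * b' - b * a' ≠ 0) :
    av ρ (a • x + b • z) (Submodule.span F {a' • x + b' • z}) = av ρ x (Submodule.span F {z}) := by
  have hxx : QuadraticMap.polar Q x x = 0 := by rw [pself, hx, mul_zero]
  have hzz : QuadraticMap.polar Q z z = 0 := by rw [pself, hz, mul_zero]
  have hzx := polar_c Q hxz
  have hx' : ∀ w ∈ Submodule.span F {z}, QuadraticMap.polar Q x w = 0 := by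
    intro w hw
    obtain ⟨c, rfl⟩ := Submodule.mem_span_singleton.1 hw
    rw [QuadraticMap.polar_smul_right, hxz, smul_zero]
  have hQ : Q (a • x + b • z) = 0 := by
    rw [qadd, qsmul, qsmul, hx, hz, QuadraticMap.polar_smul_left, QuadraticMap.polar_smul_right, hxz]
    simp
  have hw' : ∀ w ∈ Submodule.span F {a' • x + b' • z}, QuadraticMap.polar Q (a • x + b • z) w = 0 := by
    intro w hw
    obtain ⟨c, rfl⟩ := Submodule.mem_span_singleton.1 hw
    simp only [QuadraticMap.polar_smul_right, QuadraticMap.polar_smul_left, QuadraticMap.polar_add_left,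
      QuadraticMap.polar_add_right, hxx, hxz, hzz, hzx, smul_zero, add_zero]
  have h1 : av ρ (a • x + b • z) (Submodule.span F {a' • x + b' • z}) * av ρ x (Submodule.span F {z}) =
      av ρ x (Submodule.span F {z}) := by
    apply av_mul_of
    intro w hw
    obtain ⟨c, rfl⟩ := Submodule.mem_span_singleton.1 hw
    rw [El_line hx hz hxz]
    exact av_absorb' hx hx' (Submodule.smul_mem _ _ (Submodule.mem_span_singleton_self _))
  have h2 : av ρ (a • x + b • z) (Submodule.span F {a' • x + b' • z}) * av ρ x (Submodule.span F {z}) =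
      av ρ (a • x + b • z) (Submodule.span F {a' • x + b' • z}) := by
    apply mul_av_of
    intro w hw
    obtain ⟨c, rfl⟩ := Submodule.mem_span_singleton.1 hw
    have := El_line hx hz hxz a b a' b' (c * (a * b' - b * a')⁻¹)
    rw [mul_assoc, inv_mul_cancel₀ hd, mul_one] at this
    rw [← this]
    exact av_absorb hQ hw' (Submodule.smul_mem _ _ (Submodule.mem_span_singleton_self _))
  rw [← h2, h1]

/-- a point of the line absorbs -/
theorem ex_mul_line {x z : V} (hx : Q x = 0) (hz : Q z = 0) (hxz : QuadraticMap.polar Q x z = 0) {y : V}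
    (hy : y ∈ Submodule.span F {x, z}) (hy0 : y ≠ 0) : ex ρ y * av ρ x (Submodule.span F {z}) = ex ρ y := by
  have hxx : QuadraticMap.polar Q x x = 0 := by rw [pself, hx, mul_zero]
  have hzz : QuadraticMap.polar Q z z = 0 := by rw [pself, hz, mul_zero]
  have hzx := polar_c Q hxz
  obtain ⟨a, b, rfl⟩ := Submodule.mem_span_pair.1 hy
  have hQ : Q (a • x + b • z) = 0 := by
    rw [qadd, qsmul, qsmul, hx, hz, QuadraticMap.polar_smul_left, QuadraticMap.polar_smul_right, hxz]
    simp
  obtain ⟨a', b', hd⟩ : ∃ a' b' : F, a * b' - b * a' = 1 := by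
    by_cases ha : a = 0
    · have hb : b ≠ 0 := by
        rintro rfl
        rw [ha] at hy0
        simp at hy0
      exact ⟨-b⁻¹, 0, by field_simp; ring⟩
    · exact ⟨0, a⁻¹, by field_simp; ring⟩
  apply mul_av_of
  intro w hw
  obtain ⟨c, rfl⟩ := Submodule.mem_span_singleton.1 hw
  have := El_line hx hz hxz a b a' b' c
  rw [hd, mul_one] at this
  rw [← this]
  apply ex_absorb hQ
  change QuadraticMap.polar Q _ _ = 0
  simp only [QuadraticMap.polar_smul_right, QuadraticMap.polar_smul_left, QuadraticMap.polar_add_left,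
      QuadraticMap.polar_add_right, hxx, hxz, hzz, hzx, smul_zero, add_zero]

end line

section E2
variable {F V : Type*} [Field F] [Finite F] [AddCommGroup V] [Module F V] [FiniteDimensional F V] {Q : QuadraticForm F V}
  {E : Type*} [AddCommGroup E] [Module ℂ E] {ρ : Representation ℂ (EG Q) E} {ψ : AddChar F ℂ} [FiniteDimensional ℂ E]

theorem s_ne {Q : QuadraticForm F V} {A n : ℕ} (N : Num Q A n) {x x' : V} (h : HP Q x x') :
    ((Nat.card F : ℂ) * n + (Nat.card F - 1) * ((Nat.card F : ℂ) ^ 2 * A) - 1) ≠ 0 := by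
  haveI := finV F V
  have hA : 0 < A := by
    by_contra hc
    have h1 := N.hA
    have : A = 0 := by omega
    rw [this, mul_zero] at h1
    have : 0 < Nat.card V := Nat.card_pos
    omega
  have h2 : (Nat.card F : ℂ) * n + (Nat.card F - 1) * ((Nat.card F : ℂ) ^ 2 * A) - 1 =
      ((Nat.card F * n + ((Nat.card F - 1) * (Nat.card F ^ 2 * A) - 1) : ℕ) : ℂ) := by
    have h3 : 1 ≤ (Nat.card F - 1) * (Nat.card F ^ 2 * A) := by
      have := two_le_q F
      have : 0 < Nat.card F - 1 := by omega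
      exact Nat.mul_pos this (Nat.mul_pos (by positivity) hA)
    push_cast [Nat.cast_sub h3, q_sub]
    ring
  rw [h2]
  have h4 : 4 ≤ (Nat.card F - 1) * (Nat.card F ^ 2 * A) := by
    have h5 := two_le_q F
    have h6 : 1 ≤ Nat.card F - 1 := by omega
    have h7 : 4 ≤ Nat.card F ^ 2 := by nlinarith
    calc 4 = 1 * (4 * 1) := by norm_num
      _ ≤ _ := Nat.mul_le_mul h6 (Nat.mul_le_mul h7 hA)
  exact_mod_cast (by omega : Nat.card F * n + ((Nat.card F - 1) * (Nat.card F ^ 2 * A) - 1) ≠ 0)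

theorem nW_cast {A n : ℕ} (N : Num Q A n) {x x' : V} (h : HP Q x x') :
    (nn Q (perp2 Q x x') 0 : ℂ) = Nat.card F * n + (Nat.card F - 1) * ((Nat.card F : ℂ) ^ 2 * A) := by
  rw [N.nW h]
  push_cast [q_sub]
  ring

/-- the opposite trace -/
theorem val3 (B : Big Q) (hψ : ψ ≠ 1) (h1 : One Q ρ ψ) {A n : ℕ} (N : Num Q A n) {x x' v : V} (h : HP Q x x')
    (hv : v ∈ perp2 Q x x') (hv0 : v ≠ 0) (hQv : Q v = 0) :
    LinearMap.trace ℂ E (ex ρ x' * av ρ x (Submodule.span F {v})) = LinearMap.trace ℂ E (ex ρ x' * ex ρ x) +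
      (LinearMap.trace ℂ E (ex ρ x) - LinearMap.trace ℂ E (ex ρ x' * ex ρ x)) /
        ((Nat.card F : ℂ) * n + (Nat.card F - 1) * ((Nat.card F : ℂ) ^ 2 * A) - 1) * ((Nat.card F : ℂ) * n - 1) := by
  obtain ⟨b, hb1, hb2⟩ := trOpp B hψ h1 h hv hv0 hQv
  have hs := s_ne N h
  have hsym : HP Q x' x := ⟨h.2.1, h.1, by rw [QuadraticMap.polar_comm]; exact h.2.2⟩
  rw [tr_ex ρ B hsym h, nW_cast N h] at hb1
  have e := hb2 v hv hv0 hQv
  have hnot : v ∉ Submodule.span F {x, x'} := not_mem_span_pair h hv0 hv.1 hv.2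
  obtain ⟨v', k1, k2⟩ := B.exists_partner _ v hnot (fun y hy => by
    obtain ⟨α, β, rfl⟩ := Submodule.mem_span_pair.1 hy
    simp only [QuadraticMap.polar_add_left, QuadraticMap.polar_smul_left, show QuadraticMap.polar Q x v = 0 from hv.1,
      show QuadraticMap.polar Q x' v = 0 from hv.2, smul_zero, add_zero]) hQv
  have hop : OP Q x x' v v' := ⟨h, k2, hv.1, k1 x (Submodule.subset_span (by simp)), hv.2, k1 x' (Submodule.subset_span (by simp))⟩
  rw [nn_W1z hop, N.nW' hop] at e
  rw [e]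
  have hb : b = (LinearMap.trace ℂ E (ex ρ x) - LinearMap.trace ℂ E (ex ρ x' * ex ρ x)) /
        ((Nat.card F : ℂ) * n + (Nat.card F - 1) * ((Nat.card F : ℂ) ^ 2 * A) - 1) := by
    rw [eq_div_iff hs]
    linear_combination (-1 : ℂ) * hb1
  rw [← hb]
  push_cast
  ring

theorem tr_SS_R (B : Big Q) (hψ : ψ ≠ 1) (h1 : One Q ρ ψ) {A n : ℕ} (N : Num Q A n) {x x' z z' : V} (h : OP Q x x' z z') :
    LinearMap.trace ℂ E (SS ρ * av ρ x (Submodule.span F {z})) = ((Nat.card F : ℂ) ^ 2 - 1) * LinearMap.trace ℂ E (ex ρ x) +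
      ((Nat.card F : ℂ) ^ 2 * n - (Nat.card F : ℂ) ^ 2) * (LinearMap.trace ℂ E (ex ρ x) - ((Nat.card F : ℂ) - 1) * A) +
      ((nn Q ⊤ 0 : ℂ) - (Nat.card F : ℂ) ^ 2 * n) * (LinearMap.trace ℂ E (ex ρ x' * ex ρ x) +
      (LinearMap.trace ℂ E (ex ρ x) - LinearMap.trace ℂ E (ex ρ x' * ex ρ x)) /
        ((Nat.card F : ℂ) * n + (Nat.card F - 1) * ((Nat.card F : ℂ) ^ 2 * A) - 1) * ((Nat.card F : ℂ) * n - 1)) := by
  set t3 := LinearMap.trace ℂ E (ex ρ x' * ex ρ x) +
      (LinearMap.trace ℂ E (ex ρ x) - LinearMap.trace ℂ E (ex ρ x' * ex ρ x)) /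
        ((Nat.card F : ℂ) * n + (Nat.card F - 1) * ((Nat.card F : ℂ) ^ 2 * A) - 1) * ((Nat.card F : ℂ) * n - 1) with ht3
  unfold SS
  rw [Finset.sum_mul, map_sum]
  have key : ∀ y : Sg Q, LinearMap.trace ℂ E (ex ρ y.1 * av ρ x (Submodule.span F {z})) = ind (y.1 ∈ Submodule.span F {x, z}) *
      (((Nat.card F : ℂ) - 1) * A) + ind (y.1 ∈ px Q x ⊓ px Q z) *
      (LinearMap.trace ℂ E (ex ρ x) - ((Nat.card F : ℂ) - 1) * A - t3) + t3 := by
    intro y
    by_cases h1' : y.1 ∈ px Q x ⊓ px Q z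
    · rw [ind_pos h1']
      by_cases h2 : y.1 ∈ Submodule.span F {x, z}
      · rw [ind_pos h2, ex_mul_line h.h1.1 h.h2.1 h.xz h2 y.2.1]
        obtain ⟨y', hy'⟩ := B.exists_HP y.2.1 y.2.2
        rw [tr_ex ρ B hy' h.h1]
        ring
      · rw [ind_neg h2, LinearMap.trace_mul_comm]
        have hxy : QuadraticMap.polar Q x y.1 = 0 := h1'.1
        have hzy : QuadraticMap.polar Q z y.1 = 0 := h1'.2
        have hyx := polar_c Q hxy
        have hyz := polar_c Q hzy
        set α := QuadraticMap.polar Q x' y.1 with hα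
        set γ := QuadraticMap.polar Q z' y.1 with hγ
        set y0 := y.1 - α • x - γ • z with hy0
        have hs := h.symm
        have hy00 : y0 ≠ 0 := by
          intro hc
          apply h2
          rw [hy0, sub_sub, sub_eq_zero] at hc
          exact Submodule.mem_span_pair.2 ⟨α, γ, hc.symm⟩
        have hQy0 : Q y0 = 0 := by
          rw [hy0, qsub, qsub, qsmul, qsmul, y.2.2, h.h1.1, h.h2.1]
          simp only [QuadraticMap.polar_sub_left, QuadraticMap.polar_smul_left, QuadraticMap.polar_smul_right, hyx, hyz, h.xz,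
            mul_zero, smul_zero, add_zero, sub_zero]
        have m1 : y0 ∈ perp2 Q x x' := by
          constructor
          · simp only [hy0, QuadraticMap.polar_sub_right, QuadraticMap.polar_smul_right, hxy, h.h1.ee, h.xz, smul_zero, sub_zero]
          · simp only [hy0, QuadraticMap.polar_sub_right, QuadraticMap.polar_smul_right, ← hα, h.h1.fe, h.x'z, mul_zero, sub_zero,
              smul_eq_mul, mul_one, sub_self]
        have m2 : y0 ∈ perp2 Q z z' := by
          constructor
          · simp only [hy0, QuadraticMap.polar_sub_right, QuadraticMap.polar_smul_right, hzy, h.h2.ee, hs.xz, smul_zero, sub_zero]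
          · simp only [hy0, QuadraticMap.polar_sub_right, QuadraticMap.polar_smul_right, ← hγ, h.h2.fe, hs.x'z, mul_zero, sub_zero,
              smul_eq_mul, mul_one, sub_self]
        obtain ⟨w', hw1, hw2⟩ := B.ext_OP3' h hy00 hQy0 m1 m2
        have hw1s := hw1.symm
        have hw2s := hw2.symm
        have hyeq : y.1 = α • x + γ • z + y0 := by rw [hy0]; abel
        -- the frame
        have a1 : HP Q y.1 w' := by
          refine ⟨y.2.2, hw1.h2.2.1, ?_⟩
          rw [hyeq]
          simp only [QuadraticMap.polar_add_left, QuadraticMap.polar_smul_left, hw1.xz', hw2.xz', hw1.h2.2.2, smul_zero, zero_add]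
        have a2 : HP Q x (x' - α • w') := by
          refine ⟨h.h1.1, ?_, ?_⟩
          · rw [qsub, qsmul, h.h1.2.1, hw1.h2.2.1, QuadraticMap.polar_smul_right, hw1.x'z']
            simp
          · rw [QuadraticMap.polar_sub_right, QuadraticMap.polar_smul_right, h.h1.2.2, hw1.xz', smul_zero, sub_zero]
        have a3 : HP Q z (z' - γ • w') := by
          refine ⟨h.h2.1, ?_, ?_⟩
          · rw [qsub, qsmul, h.h2.2.1, hw1.h2.2.1, QuadraticMap.polar_smul_right, hw2.x'z']
            simp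
          · rw [QuadraticMap.polar_sub_right, QuadraticMap.polar_smul_right, h.h2.2.2, hw2.xz', smul_zero, sub_zero]
        have b1 : OP Q y.1 w' x (x' - α • w') := by
          refine ⟨a1, a2, hyx, ?_, hw1s.x'z, ?_⟩
          · rw [QuadraticMap.polar_sub_right, QuadraticMap.polar_smul_right, a1.2.2, QuadraticMap.polar_comm, ← hα, smul_eq_mul,
              mul_one, sub_self]
          · rw [QuadraticMap.polar_sub_right, QuadraticMap.polar_smul_right, hw1s.x'z', hw1.h2.ff, smul_zero, sub_zero]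
        have b2 : OP Q y.1 w' z (z' - γ • w') := by
          refine ⟨a1, a3, hyz, ?_, hw2s.x'z, ?_⟩
          · rw [QuadraticMap.polar_sub_right, QuadraticMap.polar_smul_right, a1.2.2, QuadraticMap.polar_comm, ← hγ, smul_eq_mul,
              mul_one, sub_self]
          · rw [QuadraticMap.polar_sub_right, QuadraticMap.polar_smul_right, hw2s.x'z', hw1.h2.ff, smul_zero, sub_zero]
        have b3 : OP Q x (x' - α • w') z (z' - γ • w') := by
          refine ⟨a2, a3, h.xz, ?_, ?_, ?_⟩
          · rw [QuadraticMap.polar_sub_right, QuadraticMap.polar_smul_right, h.xz', hw1.xz', smul_zero, sub_zero]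
          · rw [QuadraticMap.polar_sub_left, QuadraticMap.polar_smul_left, h.x'z, hw2s.x'z, smul_zero, sub_zero]
          · simp only [QuadraticMap.polar_sub_right, QuadraticMap.polar_sub_left, QuadraticMap.polar_smul_left,
              QuadraticMap.polar_smul_right, h.x'z', hw1.x'z', hw2s.x'z', hw1.h2.ff, smul_zero, sub_zero]
        rw [val2 B hψ h1 N b1 b2 b3, tr_ex ρ B a1 h.h1]
        ring
    · rw [ind_neg h1']
      have h2 : y.1 ∉ Submodule.span F {x, z} := by
        intro hc
        apply h1'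
        exact ⟨(line_sing h.h1.1 h.h2.1 h.xz (Submodule.subset_span (by simp)) hc).2,
          (line_sing h.h1.1 h.h2.1 h.xz (Submodule.subset_span (by simp)) hc).2⟩
      rw [ind_neg h2]
      have hxx := h.h1.ee
      have hzz := h.h2.ee
      have hzx := polar_c Q h.xz
      set α := QuadraticMap.polar Q x y.1 with hα
      set γ := QuadraticMap.polar Q z y.1 with hγ
      obtain ⟨a, b, hab⟩ : ∃ a b : F, a * α - b * (-γ) = 1 := by
        by_cases hα0 : α = 0
        · have hγ0 : γ ≠ 0 := by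
            intro hc
            exact h1' ⟨hα0, hc⟩
          exact ⟨0, γ⁻¹, by field_simp; ring⟩
        · exact ⟨α⁻¹, 0, by field_simp; ring⟩
      have hd : a * α - b * (-γ) ≠ 0 := by rw [hab]; exact one_ne_zero
      rw [← av_line h.h1.1 h.h2.1 h.xz hd]
      have hh : HP Q (a • x + b • z) y.1 := by
        refine ⟨?_, y.2.2, ?_⟩
        · rw [qadd, qsmul, qsmul, h.h1.1, h.h2.1, QuadraticMap.polar_smul_left, QuadraticMap.polar_smul_right, h.xz]
          simp
        · rw [QuadraticMap.polar_add_left, QuadraticMap.polar_smul_left, QuadraticMap.polar_smul_left, ← hα, ← hγ, smul_eq_mul,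
            smul_eq_mul, ← hab]
          ring
      have hv : (-γ) • x + α • z ∈ perp2 Q (a • x + b • z) y.1 := by
        constructor
        · simp only [QuadraticMap.polar_add_left, QuadraticMap.polar_smul_left, QuadraticMap.polar_add_right,
            QuadraticMap.polar_smul_right, hxx, hzz, hzx, h.xz, smul_zero, add_zero]
        · rw [QuadraticMap.polar_comm, QuadraticMap.polar_add_left, QuadraticMap.polar_smul_left, QuadraticMap.polar_smul_left,
            ← hα, ← hγ, smul_eq_mul, smul_eq_mul]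
          ring
      have hQv : Q ((-γ) • x + α • z) = 0 := by
        rw [qadd, qsmul, qsmul, h.h1.1, h.h2.1, QuadraticMap.polar_smul_left, QuadraticMap.polar_smul_right, h.xz]
        simp
      have hv0 : (-γ) • x + α • z ≠ 0 := by
        intro hc
        have := (LinearIndependent.pair_iff.1 h.indep) _ _ hc
        rw [this.1, this.2] at hd
        simp at hd
      rw [val3 B hψ h1 N hh hv hv0 hQv, tr_ex2 ρ B hh h.h1, tr_ex ρ B hh h.h1, ← ht3]
      ring
  rw [Finset.sum_congr rfl (fun y _ => key y), Finset.sum_add_distrib, Finset.sum_add_distrib, ← Finset.sum_mul, ← Finset.sum_mul,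
    sum_Sg_ind, sum_Sg_ind, Finset.sum_const, Finset.card_univ, nsmul_eq_mul, card_Sg, nn_line2 h]
  have hxz' : nn Q (px Q x ⊓ px Q z) 0 = Nat.card F * (Nat.card F * n) := by rw [nn_xz h, N.nW' h]
  rw [hxz']
  push_cast
  ring

end E2

section master
variable {F V : Type*} [Field F] [Finite F] [AddCommGroup V] [Module F V] [FiniteDimensional F V] {Q : QuadraticForm F V}
  {E : Type*} [AddCommGroup E] [Module ℂ E] {ρ : Representation ℂ (EG Q) E} {ψ : AddChar F ℂ} [FiniteDimensional ℂ E]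

theorem master [ρ.IsIrreducible] (B : Big Q) (hψ : ψ ≠ 1) (h1 : One Q ρ ψ) {A n : ℕ} (N : Num Q A n) :
    ∃ k : ℕ, (finrank ℂ E : ℂ) * (((Nat.card F : ℂ) ^ 2 - 1) * ((Nat.card F : ℂ) ^ 3 * A * (Nat.card F - 1 + k) + (Nat.card F - 1) -
      Nat.card F * k)) = ((Nat.card F : ℂ) * n + (Nat.card F - 1) * ((Nat.card F : ℂ) ^ 2 * A) - 1) *
        ((Nat.card F : ℂ) ^ 2 * n + ((Nat.card F : ℂ) ^ 2 - 1) * ((Nat.card F : ℂ) ^ 3 * A) - 1) * (Nat.card F - 1 + k) := by
  obtain ⟨x, x', z, z', t, t', u, hop, htx, htz, hs, -⟩ := B.fr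
  obtain ⟨μ, m, k, L0, L1, L2⟩ := line_traces (ρ := ρ) B hψ h1 hop
  refine ⟨k, ?_⟩
  rw [trace_eQ B hψ h1 hop, L0] at L1
  have v1 := val1 B hψ h1 N hop
  rw [L0] at v1
  obtain ⟨μ₀, hμ₀⟩ := SS_scalar ρ
  have hfr := finrankE B hψ h1 hop.h1
  have t1 := tr_SS (ρ := ρ) B hop.h1
  have t2 := tr_SS_ex (ρ := ρ) B hop
  have t3 := tr_SS_R B hψ h1 N hop
  have t4 := trR B hψ h1 hop.h1 (mem_perp_of hop).1
  rw [hμ₀] at t1 t2 t3
  rw [smul_mul_assoc, one_mul, map_smul, smul_eq_mul] at t2 t3
  rw [map_smul, LinearMap.trace_one, smul_eq_mul] at t1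
  have hnt : (nn Q ⊤ 0 : ℂ) = (Nat.card F : ℂ) ^ 2 * n + ((Nat.card F : ℂ) ^ 2 - 1) * ((Nat.card F : ℂ) ^ 3 * A) := by
    rw [N.hn]
    have h1 : 1 ≤ Nat.card F ^ 2 := Nat.one_le_pow _ _ (lt_of_lt_of_le two_pos (two_le_q F))
    push_cast [Nat.cast_sub h1]
    ring
  rw [t4, nn_W1z hop, N.nW' hop] at t3
  rw [nW_cast N hop.h1] at t2 hfr
  rw [hnt] at t1 t2 t3
  have hsne := s_ne N hop.h1
  push_cast at t3
  set q : ℂ := (Nat.card F : ℂ) with hq
  set c := LinearMap.trace ℂ E (ex ρ x) with hc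
  set τ1 := LinearMap.trace ℂ E (ex ρ x * ex ρ z) with hτ1
  set τ2 := LinearMap.trace ℂ E (ex ρ x' * ex ρ x) with hτ2
  set s : ℂ := q * n + (q - 1) * (q ^ 2 * A) - 1 with hsdef
  have hq0 : q ≠ 0 := q_ne F
  have hq1 : q - 1 ≠ 0 := by
    rw [hq, ← q_sub F]
    have := two_le_q F
    exact_mod_cast (by omega : Nat.card F - 1 ≠ 0)
  have hqk : q - 1 + k ≠ 0 := by
    rw [hq, ← q_sub F]
    have := two_le_q F
    exact_mod_cast (by omega : Nat.card F - 1 + k ≠ 0)
  have hA0 : (A : ℂ) ≠ 0 := by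
    haveI := finV F V
    have h1 := N.hA
    have h2 : 0 < Nat.card V := Nat.card_pos
    intro hc
    have : A = 0 := by exact_mod_cast hc
    rw [this, mul_zero] at h1
    omega
  set d : ℂ := (finrank ℂ E : ℂ) with hd
  clear_value d τ1 τ2 c
  obtain ⟨e, he⟩ : ∃ e, e = (c - τ2) / s := ⟨_, rfl⟩
  rw [← he] at t3
  rw [eq_div_iff hsne] at he
  -- (I)
  have I : μ₀ = (n - 1) + (q ^ 2 - 1) * q ^ 3 * A * e := by
    have hne : (q - 1) * q ^ 2 * A ≠ 0 := mul_ne_zero (mul_ne_zero hq1 (pow_ne_zero 2 hq0)) hA0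
    apply mul_left_cancel₀ hne
    linear_combination t1 - t3 - μ₀ * hfr - ((q ^ 2 - 1) * (q ^ 3 * A)) * he
  have II : μ₀ = q * (c - τ1) + (q - 1) * q ^ 4 * A * e := by
    apply mul_left_cancel₀ hsne
    linear_combination t1 - t2 - μ₀ * hfr - (q - 1) * q ^ 4 * A * he
  have III : (q - 1) * q ^ 3 * A * e = q * (c - τ1) - (n - 1) := by
    linear_combination II - I
  have IV : (k + q - 1) * (q * (c - τ1) - q * (n - 1)) = k * (q ^ 2 - 1) := by
    apply mul_left_cancel₀ hq1
    linear_combination (-(k + q - 1) : ℂ) * L2 - (k + q - 1) * (q * (q - 1)) * v1 + k * L1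
  have V' : μ₀ = (n - 1) + (q + 1) * (q * (c - τ1) - (n - 1)) := by
    linear_combination I + (q + 1) * III
  linear_combination (-(q - 1 + k) : ℂ) * t1 + (q - 1 + k) * d * V' + (q + 1) * d * IV +
    (q - 1 + k) * (q ^ 2 * n + (q ^ 2 - 1) * (q ^ 3 * A) - 1) * hfr

end master

end CfsgLib.Oy
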