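import Cfsg.Agent.LibOy13

set_option autoImplicit false
set_option linter.unusedSectionVars false

/-! The alternatives for the weights (helper26). -/

namespace CfsgLib.Oy

open Cfsg.Agent.H22 Module CfsgLib.Wt CfsgLib.WtQ CfsgLib.WtSp CfsgLib.SLw

section alt
variable {F V : Type*} [Field F] [Finite F] [AddCommGroup V] [Module F V] [FiniteDimensional F V] {Q : QuadraticForm F V}
  {E : Type*} [AddCommGroup E] [Module ℂ E] {ρ : Representation ℂ (EG Q) E} {ψ : AddChar F ℂ} [FiniteDimensional ℂ E]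

theorem finrank_sum (B : Big Q) (hψ : ψ ≠ 1) {x x' : V} (h : HP Q x x') :
    finrank ℂ E = ∑ r : perp2 Q x x', finrank ℂ (wx ρ ψ h (r : V)) := by
  have := trace_sum (ρ := ρ) B hψ h (1 : E →ₗ[ℂ] E)
  rw [LinearMap.trace_one] at this
  simp only [one_mul, trace_pw] at this
  exact_mod_cast this

open Classical in
theorem nn_sum (U : Submodule F V) (c : F) : nn Q U c = ∑ r : U, if Q (r : V) = c then 1 else 0 := by
  have := finV F V
  rw [Finset.sum_boole, ← Fintype.card_subtype, ← Nat.card_eq_fintype_card]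
  unfold nn
  exact Nat.card_congr ⟨fun v => ⟨⟨v.1, v.2.1⟩, v.2.2⟩, fun v => ⟨v.1.1, v.1.2, v.2⟩, fun _ => rfl, fun _ => rfl⟩

theorem wx_eq_of (B : Big Q) {x x' r y y' s : V} (h : HP Q x x') (hr : r ∈ perp2 Q x x') (hr0 : r ≠ 0)
    (h' : HP Q y y') (hs : s ∈ perp2 Q y y') (hs0 : s ≠ 0) (hrs : Q r = Q s) :
    finrank ℂ (wx ρ ψ h r) = finrank ℂ (wx ρ ψ h' s) := by
  obtain ⟨g, g1, g2, g3⟩ := B.conj_r h hr hr0 h' hs hs0 hrs
  rw [finrank_map ρ ψ h h' g g1 g2 r, g3]

/-- the second orbit -/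
theorem wx_scale (B : Big Q) {x x' r s : V} (h : HP Q x x') (hr : r ∈ perp2 Q x x') (hr0 : r ≠ 0) (hs : s ∈ perp2 Q x x')
    (hs0 : s ≠ 0) {a : F} (ha : a ≠ 0) (hrs : Q r = a ^ 2 * Q s) (hw : wx ρ ψ h r ≠ ⊥) : wx ρ ψ h s ≠ ⊥ := by
  have h' : HP Q (a • x) (a⁻¹ • x') := by
    refine ⟨?_, ?_, ?_⟩
    · rw [qsmul, h.1, mul_zero]
    · rw [qsmul, h.2.1, mul_zero]
    · rw [QuadraticMap.polar_smul_left, QuadraticMap.polar_smul_right, h.2.2, smul_eq_mul, smul_eq_mul, mul_one, mul_inv_cancel₀ ha]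
  have hs' : a • s ∈ perp2 Q (a • x) (a⁻¹ • x') := by
    constructor
    · rw [QuadraticMap.polar_smul_left, QuadraticMap.polar_smul_right, hs.1, smul_zero, smul_zero]
    · rw [QuadraticMap.polar_smul_left, QuadraticMap.polar_smul_right, hs.2, smul_zero, smul_zero]
  obtain ⟨g, g1, g2, g3⟩ := B.conj_r h hr hr0 h' hs' (smul_ne_zero ha hs0) (by rw [hrs, qsmul]; ring)
  obtain ⟨v, hv, hv0⟩ := (Submodule.ne_bot_iff _).1 hw
  intro hc
  have := wx_move ρ ψ h ha g g1 g2 hv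
  rw [g3, smul_smul, inv_mul_cancel₀ ha, one_smul, hc, Submodule.mem_bot] at this
  apply hv0
  have h2 := rho_cancel' ρ g v
  rw [← h2, this, map_zero]

theorem nn_nonsing_ge {A n : ℕ} (N : Num Q A n) (B : Big Q) {x x' : V} (h : HP Q x x') (c : F) :
    Nat.card F * ((Nat.card F ^ 2 - 1) * A) ≤ nn Q (perp2 Q x x') c := by
  obtain ⟨z, z', hop⟩ := B.ext_OP h
  obtain ⟨w, w', h2, h3⟩ := B.ext_OP3 hop
  rw [nn_W1 hop, nn_W2 hop h2 h3, N.cW' hop, N.cW'' hop h2 h3, ← qsq (two_le_q F)]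
  have : Nat.card F * (Nat.card F * ((Nat.card F - 1) * A) + (Nat.card F - 1) * A) =
    Nat.card F * ((Nat.card F - 1) * A) + (Nat.card F - 1) * (Nat.card F ^ 2 * A) := by ring
  rw [this]
  apply Nat.add_le_add_right
  apply Nat.mul_le_mul_left
  omega

theorem rep_trivial (H : ∀ z w : V, Q z = 0 → QuadraticMap.polar Q z w = 0 → ρ (El Q z w) = 1) (g : EG Q) : ρ g = 1 := by
  obtain ⟨g, hg⟩ := g
  have key : ∀ g (hg : g ∈ EG Q), ρ ⟨g, hg⟩ = 1 := by
    intro g hg
    have hg' := hg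
    unfold EG at hg'
    induction hg' using Subgroup.closure_induction with
    | mem x hx =>
      obtain ⟨v, w, hv, hw, rfl⟩ := hx
      have := H v w hv hw
      have e : El Q v w = ⟨oEich Q v w hv hw, oEich_mem v w hv hw⟩ := by
        unfold El
        rw [dif_pos ⟨hv, hw⟩]
      rw [e] at this
      exact this
    | one => exact map_one ρ
    | mul x y hx hy ih1 ih2 =>
      have e : (⟨x * y, hg⟩ : EG Q) = ⟨x, hx⟩ * ⟨y, hy⟩ := rfl
      rw [e, map_mul, ih1 hx, ih2 hy, one_mul]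
    | inv x hx ih =>
      have e : (⟨x⁻¹, hg⟩ : EG Q) = (⟨x, hx⟩ : EG Q)⁻¹ := rfl
      rw [e]
      have h1 : ρ (⟨x, hx⟩ : EG Q)⁻¹ * ρ ⟨x, hx⟩ = 1 := by rw [← map_mul, inv_mul_cancel, map_one]
      rw [ih hx, mul_one] at h1
      exact h1
  exact key g hg

theorem irr_triv_finrank (hirr : ρ.IsIrreducible) (h2 : 2 ≤ finrank ℂ E) (htriv : ∀ g, ρ g = 1) : False := by
  haveI : Nontrivial E := by
    rw [← Module.finrank_pos_iff (R := ℂ)]; omega
  obtain ⟨v, hv⟩ := exists_ne (0 : E)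
  let S : Subrepresentation ρ := ⟨Submodule.span ℂ {v}, fun g w hw => by rw [htriv g]; exact hw⟩
  rcases hirr.eq_bot_or_eq_top S with hS | hS
  · have h3 : v ∈ S := Submodule.mem_span_singleton_self v
    rw [hS] at h3
    exact hv h3
  · have h3 : (Submodule.span ℂ {v} : Submodule ℂ E) = ⊤ := by
      rw [eq_top_iff]
      intro w _
      have : w ∈ S := by rw [hS]; trivial
      exact this
    have h4 : finrank ℂ (Submodule.span ℂ {v} : Submodule ℂ E) = 1 := finrank_span_singleton hv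
    rw [h3, finrank_top] at h4
    omega

theorem El_partner {z z' w : V} (h : HP Q z z') (hw : QuadraticMap.polar Q z w = 0) :
    w - QuadraticMap.polar Q z' w • z ∈ perp2 Q z z' ∧ El Q z w = El Q z (w - QuadraticMap.polar Q z' w • z) := by
  have h1 : QuadraticMap.polar Q z (w - QuadraticMap.polar Q z' w • z) = 0 := by
    rw [QuadraticMap.polar_sub_right, QuadraticMap.polar_smul_right, hw, h.ee, smul_zero, sub_zero]
  refine ⟨⟨h1, ?_⟩, ?_⟩
  · rw [QuadraticMap.polar_sub_right, QuadraticMap.polar_smul_right, h.fe, smul_eq_mul, mul_one, sub_self]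
  · have h2 : QuadraticMap.polar Q z (QuadraticMap.polar Q z' w • z) = 0 := by rw [QuadraticMap.polar_smul_right, h.ee, smul_zero]
    have := El_add h.1 h1 h2
    rw [El_self _ h.1, mul_one, sub_add_cancel] at this
    exact this.symm

theorem all_bot_false (hirr : ρ.IsIrreducible) (h2 : 2 ≤ finrank ℂ E) (B : Big Q) (hψ : ψ ≠ 1)
    (H : ∀ (x x' : V) (h : HP Q x x') (r : V), r ∈ perp2 Q x x' → r ≠ 0 → wx ρ ψ h r = ⊥) : False := by
  classical
  apply irr_triv_finrank hirr h2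
  apply rep_trivial
  intro z w hz hzw
  by_cases hz0 : z = 0
  · rw [hz0, El_zero_left, map_one]
  · obtain ⟨z', h⟩ := B.exists_HP hz0 hz
    have h1 := sum_pw (ρ := ρ) B hψ h
    have h3 : ∀ r : perp2 Q z z', pw ρ ψ h (r : V) = if r = 0 then ex ρ z else 0 := by
      intro r
      by_cases hr : r = 0
      · rw [if_pos hr, hr, Submodule.coe_zero, pw_zero]
      · rw [if_neg hr]
        exact pw_eq_zero h (H z z' h r r.2 (fun hc => hr (Subtype.ext hc)))
    rw [Finset.sum_congr rfl (fun r _ => h3 r), Finset.sum_ite_eq' Finset.univ (0 : perp2 Q z z') (fun _ => ex ρ z),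
      if_pos (Finset.mem_univ _)] at h1
    have := ex_absorb' (ρ := ρ) hz (w := w) hzw
    rw [h1, mul_one] at this
    exact this

end alt

end CfsgLib.Oy
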