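import Cfsg.Agent.LibOy15

set_option autoImplicit false
set_option linter.unusedSectionVars false

/-! The master equation for nonsingular weights (helper26). -/

namespace CfsgLib.Oy

open Cfsg.Agent.H22 Module CfsgLib.Wt CfsgLib.WtQ CfsgLib.WtSp CfsgLib.SLw

section nums
variable {F V : Type*} [Field F] [Finite F] [AddCommGroup V] [Module F V] [FiniteDimensional F V]

/-- the basic numbers for a norm -/
structure NumC (Q : QuadraticForm F V) (A n : ℕ) (c : F) : Prop where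
  hA : Nat.card V = Nat.card F ^ 6 * A
  hn : nn Q ⊤ c = Nat.card F ^ 2 * n + (Nat.card F ^ 2 - 1) * (Nat.card F ^ 3 * A)

variable {Q : QuadraticForm F V} {A n : ℕ} {c : F}

theorem NumC.cW (N : NumC Q A n c) {x x' : V} (h : HP Q x x') : Nat.card (perp2 Q x x') = Nat.card F ^ 4 * A := by
  have h1 := card_W0 h
  rw [N.hA] at h1
  have hq : 0 < Nat.card F ^ 2 := pow_pos (lt_of_lt_of_le two_pos (two_le_q F)) 2
  apply Nat.eq_of_mul_eq_mul_left hq
  rw [← h1]
  ring

theorem NumC.nW (N : NumC Q A n c) {x x' : V} (h : HP Q x x') :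
    nn Q (perp2 Q x x') c = Nat.card F * n + (Nat.card F - 1) * (Nat.card F ^ 2 * A) := by
  have h1 := nn_top h c
  rw [N.hn, N.cW h] at h1
  have hq : 0 < Nat.card F := lt_of_lt_of_le two_pos (two_le_q F)
  apply Nat.eq_of_mul_eq_mul_left hq
  have h2 := qsq (two_le_q F) (Nat.card F ^ 3 * A)
  rw [← h2] at h1
  have h3 : (Nat.card F - 1) * (Nat.card F ^ 4 * A) = Nat.card F * ((Nat.card F - 1) * (Nat.card F ^ 3 * A)) := by ring
  rw [h3] at h1
  have h4 : Nat.card F * (Nat.card F * n + (Nat.card F - 1) * (Nat.card F ^ 2 * A)) = Nat.card F ^ 2 * n + (Nat.card F - 1) * (Nat.card F ^ 3 * A) := by ring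
  rw [h4]
  omega

theorem NumC.cW' (N : NumC Q A n c) {x x' z z' : V} (h : OP Q x x' z z') :
    Nat.card (perp2 Q x x' ⊓ perp2 Q z z' : Submodule F V) = Nat.card F ^ 2 * A := by
  have h1 := card_W1 h
  rw [N.cW h.h1] at h1
  have hq : 0 < Nat.card F ^ 2 := pow_pos (lt_of_lt_of_le two_pos (two_le_q F)) 2
  apply Nat.eq_of_mul_eq_mul_left hq
  rw [← h1]
  ring

theorem NumC.nW' (N : NumC Q A n c) {x x' z z' : V} (h : OP Q x x' z z') :
    nn Q (perp2 Q x x' ⊓ perp2 Q z z') c = n := by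
  have h1 := nn_W1 h c
  rw [N.nW h.h1, N.cW' h] at h1
  have hq : 0 < Nat.card F := lt_of_lt_of_le two_pos (two_le_q F)
  apply Nat.eq_of_mul_eq_mul_left hq
  omega

theorem NumC.cW'' (N : NumC Q A n c) {x x' z z' w w' : V} (h1 : OP Q x x' z z') (h2 : OP Q x x' w w') (h3 : OP Q z z' w w') :
    Nat.card (perp2 Q x x' ⊓ perp2 Q z z' ⊓ perp2 Q w w' : Submodule F V) = A := by
  have e := card_W2 h1 h2 h3
  rw [N.cW' h1] at e
  have hq : 0 < Nat.card F ^ 2 := pow_pos (lt_of_lt_of_le two_pos (two_le_q F)) 2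
  exact (Nat.eq_of_mul_eq_mul_left hq e).symm

theorem NumC.nW'' (N : NumC Q A n c) {x x' z z' w w' : V} (h1 : OP Q x x' z z') (h2 : OP Q x x' w w') (h3 : OP Q z z' w w') :
    n = Nat.card F * nn Q (perp2 Q x x' ⊓ perp2 Q z z' ⊓ perp2 Q w w') c + (Nat.card F - 1) * A := by
  have e := nn_W2 h1 h2 h3 c
  rw [N.nW' h1, N.cW'' h1 h2 h3] at e
  exact e

end nums

section E2
variable {F V : Type*} [Field F] [Finite F] [AddCommGroup V] [Module F V] [FiniteDimensional F V] {Q : QuadraticForm F V}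
  {E : Type*} [AddCommGroup E] [Module ℂ E] {ρ : Representation ℂ (EG Q) E} {ψ : AddChar F ℂ} [FiniteDimensional ℂ E] {c : F}

theorem val1C (B : Big Q) (hψ : ψ ≠ 1) (h1 : OneC Q ρ ψ c) (hc : c ≠ 0) {A n : ℕ} (N : NumC Q A n c) {x x' z z' : V}
    (h : OP Q x x' z z') :
    LinearMap.trace ℂ E (av ρ z (px Q z ⊓ px Q x) * ex ρ x) = LinearMap.trace ℂ E (ex ρ x) - n := by
  have e1 := trAC B hψ h1 hc h.h1 (mem_perp_of h).1 h.h2.ne h.h2.1
  have e2 := trAC' B hψ h1 hc h.h1 (mem_perp_of h).1 h.h2.ne h.h2.1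
  rw [tr_A ρ B h, e2, nn_W1z h, N.nW' h] at e1
  have hq := q_ne F
  push_cast at e1
  have : (Nat.card F : ℂ)⁻¹ * (Nat.card F * (n : ℂ)) = n := by field_simp
  linear_combination e1 - this

theorem val2C (B : Big Q) (hψ : ψ ≠ 1) (h1 : OneC Q ρ ψ c) (hc : c ≠ 0) {A n : ℕ} (N : NumC Q A n c) {x x' z z' w w' : V}
    (h : OP Q x x' z z') (h2 : OP Q x x' w w') (h3 : OP Q z z' w w') :
    LinearMap.trace ℂ E (av ρ z (Submodule.span F {w}) * ex ρ x) = LinearMap.trace ℂ E (ex ρ x) - ((Nat.card F : ℂ) - 1) * A := by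
  have e1 := trRC B hψ h1 hc h.h1 (mem_perp_of h).1
  have e2 := trRC' B hψ h1 hc h.h1 (mem_perp_of h).1 h.h2.ne h.h2.1 (mem_perp_of h2).1 h3.not_mem h2.h2.1 h3.xz
  rw [tr_R ρ B h h3, e2, nn_W1z h, N.nW' h, nn_zw h h2 h3, N.nW h.h1] at e1
  have e3 := N.nW'' h h2 h3
  set n2 := nn Q (perp2 Q x x' ⊓ perp2 Q z z' ⊓ perp2 Q w w') c
  have e3' : (n : ℂ) = Nat.card F * n2 + ((Nat.card F : ℂ) - 1) * A := by
    rw [← q_sub F]
    exact_mod_cast e3
  have hq := q_ne F
  push_cast at e1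
  rw [q_sub F] at e1
  have k1 : (1 - (Nat.card F : ℂ)⁻¹) * (Nat.card F * (Nat.card F * (n2 : ℂ))) = (Nat.card F - 1) * (Nat.card F * n2) := by
    field_simp
  have k2 : (Nat.card F : ℂ)⁻¹ * (Nat.card F * (n : ℂ) + (Nat.card F - 1) * ((Nat.card F : ℂ) ^ 2 * A)) =
      n + (Nat.card F - 1) * (Nat.card F * A) := by
    field_simp
  rw [k1, k2] at e1
  linear_combination e1 + (Nat.card F - 1 : ℂ) * e3'

theorem nWC_cast {A n : ℕ} (N : NumC Q A n c) {x x' : V} (h : HP Q x x') :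
    (nn Q (perp2 Q x x') c : ℂ) = Nat.card F * n + (Nat.card F - 1) * ((Nat.card F : ℂ) ^ 2 * A) := by
  rw [N.nW h]
  push_cast [q_sub]
  ring

theorem A_pos {Q : QuadraticForm F V} {A n : ℕ} {c : F} (N : NumC Q A n c) : 0 < A := by
  have := finV F V
  by_contra hc
  have h1 := N.hA
  have h2 : A = 0 := by omega
  rw [h2, mul_zero] at h1
  have : 0 < Nat.card V := Nat.card_pos
  omega

theorem nc_ne {Q : QuadraticForm F V} {A n : ℕ} {c : F} (N : NumC Q A n c) :
    ((Nat.card F : ℂ) * n + (Nat.card F - 1) * ((Nat.card F : ℂ) ^ 2 * A)) ≠ 0 := by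
  have hA := A_pos N
  have h2 := two_le_q F
  rw [← q_sub F]
  have h3 : 0 < (Nat.card F - 1) * (Nat.card F ^ 2 * A) := Nat.mul_pos (by omega) (Nat.mul_pos (by positivity) hA)
  exact_mod_cast (by omega : Nat.card F * n + (Nat.card F - 1) * (Nat.card F ^ 2 * A) ≠ 0)

/-- the opposite trace -/
theorem val3C (B : Big Q) (hψ : ψ ≠ 1) (h1 : OneC Q ρ ψ c) (hc : c ≠ 0) {A n : ℕ} (N : NumC Q A n c) {x x' v : V} (h : HP Q x x')
    (hv : v ∈ perp2 Q x x') (hv0 : v ≠ 0) (hQv : Q v = 0) :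
    LinearMap.trace ℂ E (ex ρ x' * av ρ x (Submodule.span F {v})) = LinearMap.trace ℂ E (ex ρ x' * ex ρ x) +
      (LinearMap.trace ℂ E (ex ρ x) - LinearMap.trace ℂ E (ex ρ x' * ex ρ x)) /
        ((Nat.card F : ℂ) * n + (Nat.card F - 1) * ((Nat.card F : ℂ) ^ 2 * A)) * ((Nat.card F : ℂ) * n) := by
  have hnot : v ∉ Submodule.span F {x, x'} := not_mem_span_pair h hv0 hv.1 hv.2
  obtain ⟨v', k1, k2⟩ := B.exists_partner _ v hnot (fun y hy => by
    obtain ⟨α, β, rfl⟩ := Submodule.mem_span_pair.1 hy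
    simp only [QuadraticMap.polar_add_left, QuadraticMap.polar_smul_left, show QuadraticMap.polar Q x v = 0 from hv.1,
      show QuadraticMap.polar Q x' v = 0 from hv.2, smul_zero, add_zero]) hQv
  have hop : OP Q x x' v v' := ⟨h, k2, hv.1, k1 x (Submodule.subset_span (by simp)), hv.2, k1 x' (Submodule.subset_span (by simp))⟩
  have hv' := (mem_perp_of hop).2
  have hu : v + c • v' ∈ perp2 Q x x' := Submodule.add_mem _ hv (Submodule.smul_mem _ _ hv')
  have hQu : Q (v + c • v') = c := k2.q1 c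
  have hu0 : v + c • v' ≠ 0 := by
    intro h0
    rw [h0, map_zero] at hQu
    exact hc hQu.symm
  obtain ⟨b, hb1, hb2⟩ := trOppC B hψ h1 hc h hu hu0 hQu
  have hs := nc_ne N
  have hsym : HP Q x' x := ⟨h.2.1, h.1, by rw [QuadraticMap.polar_comm]; exact h.2.2⟩
  rw [tr_ex ρ B hsym h, nWC_cast N h] at hb1
  have e := hb2 v hv hv0 hQv
  rw [nn_W1z hop, N.nW' hop] at e
  rw [e]
  have hb : b = (LinearMap.trace ℂ E (ex ρ x) - LinearMap.trace ℂ E (ex ρ x' * ex ρ x)) /
        ((Nat.card F : ℂ) * n + (Nat.card F - 1) * ((Nat.card F : ℂ) ^ 2 * A)) := by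
    rw [eq_div_iff hs]
    linear_combination (-1 : ℂ) * hb1
  rw [← hb]
  push_cast
  ring

theorem tr_SS_RC (B : Big Q) (hψ : ψ ≠ 1) (h1 : OneC Q ρ ψ c) (hc : c ≠ 0) {A n m : ℕ} (N : NumC Q A n c) (N0 : Num Q A m)
    {x x' z z' : V} (h : OP Q x x' z z') :
    LinearMap.trace ℂ E (SS ρ * av ρ x (Submodule.span F {z})) = ((Nat.card F : ℂ) ^ 2 - 1) * LinearMap.trace ℂ E (ex ρ x) +
      ((Nat.card F : ℂ) ^ 2 * m - (Nat.card F : ℂ) ^ 2) * (LinearMap.trace ℂ E (ex ρ x) - ((Nat.card F : ℂ) - 1) * A) +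
      ((nn Q ⊤ 0 : ℂ) - (Nat.card F : ℂ) ^ 2 * m) * (LinearMap.trace ℂ E (ex ρ x' * ex ρ x) +
      (LinearMap.trace ℂ E (ex ρ x) - LinearMap.trace ℂ E (ex ρ x' * ex ρ x)) /
        ((Nat.card F : ℂ) * n + (Nat.card F - 1) * ((Nat.card F : ℂ) ^ 2 * A)) * ((Nat.card F : ℂ) * n)) := by
  set t3 := LinearMap.trace ℂ E (ex ρ x' * ex ρ x) +
      (LinearMap.trace ℂ E (ex ρ x) - LinearMap.trace ℂ E (ex ρ x' * ex ρ x)) /
        ((Nat.card F : ℂ) * n + (Nat.card F - 1) * ((Nat.card F : ℂ) ^ 2 * A)) * ((Nat.card F : ℂ) * n) with ht3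
  unfold SS
  rw [Finset.sum_mul, map_sum]
  have key : ∀ y : Sg Q, LinearMap.trace ℂ E (ex ρ y.1 * av ρ x (Submodule.span F {z})) = ind (y.1 ∈ Submodule.span F {x, z}) *
      (((Nat.card F : ℂ) - 1) * A) + ind (y.1 ∈ px Q x ⊓ px Q z) *
      (LinearMap.trace ℂ E (ex ρ x) - ((Nat.card F : ℂ) - 1) * A - t3) + t3 := by
    intro y
    by_cases h1' : y.1 ∈ px Q x ⊓ px Q z
    · rw [ind_pos h1']
      by_cases h2 : y.1 ∈ Submodule.span F {x, z}
      · rw [ind_pos h2, ex_mul_line h.h1.1 h.h2.1 h.xz h2 y.2.1]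
        obtain ⟨y', hy'⟩ := B.exists_HP y.2.1 y.2.2
        rw [tr_ex ρ B hy' h.h1]
        ring
      · rw [ind_neg h2, LinearMap.trace_mul_comm]
        have hxy : QuadraticMap.polar Q x y.1 = 0 := h1'.1
        have hzy : QuadraticMap.polar Q z y.1 = 0 := h1'.2
        have hyx := polar_c Q hxy
        have hyz := polar_c Q hzy
        set α := QuadraticMap.polar Q x' y.1 with hα
        set γ := QuadraticMap.polar Q z' y.1 with hγ
        set y0 := y.1 - α • x - γ • z with hy0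
        have hs := h.symm
        have hy00 : y0 ≠ 0 := by
          intro hc
          apply h2
          rw [hy0, sub_sub, sub_eq_zero] at hc
          exact Submodule.mem_span_pair.2 ⟨α, γ, hc.symm⟩
        have hQy0 : Q y0 = 0 := by
          rw [hy0, qsub, qsub, qsmul, qsmul, y.2.2, h.h1.1, h.h2.1]
          simp only [QuadraticMap.polar_sub_left, QuadraticMap.polar_smul_left, QuadraticMap.polar_smul_right, hyx, hyz, h.xz,
            mul_zero, smul_zero, add_zero, sub_zero]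
        have m1 : y0 ∈ perp2 Q x x' := by
          constructor
          · simp only [hy0, QuadraticMap.polar_sub_right, QuadraticMap.polar_smul_right, hxy, h.h1.ee, h.xz, smul_zero, sub_zero]
          · simp only [hy0, QuadraticMap.polar_sub_right, QuadraticMap.polar_smul_right, ← hα, h.h1.fe, h.x'z, mul_zero, sub_zero,
              smul_eq_mul, mul_one, sub_self]
        have m2 : y0 ∈ perp2 Q z z' := by
          constructor
          · simp only [hy0, QuadraticMap.polar_sub_right, QuadraticMap.polar_smul_right, hzy, h.h2.ee, hs.xz, smul_zero, sub_zero]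
          · simp only [hy0, QuadraticMap.polar_sub_right, QuadraticMap.polar_smul_right, ← hγ, h.h2.fe, hs.x'z, mul_zero, sub_zero,
              smul_eq_mul, mul_one, sub_self]
        obtain ⟨w', hw1, hw2⟩ := B.ext_OP3' h hy00 hQy0 m1 m2
        have hw1s := hw1.symm
        have hw2s := hw2.symm
        have hyeq : y.1 = α • x + γ • z + y0 := by rw [hy0]; abel
        -- the frame
        have a1 : HP Q y.1 w' := by
          refine ⟨y.2.2, hw1.h2.2.1, ?_⟩
          rw [hyeq]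
          simp only [QuadraticMap.polar_add_left, QuadraticMap.polar_smul_left, hw1.xz', hw2.xz', hw1.h2.2.2, smul_zero, zero_add]
        have a2 : HP Q x (x' - α • w') := by
          refine ⟨h.h1.1, ?_, ?_⟩
          · rw [qsub, qsmul, h.h1.2.1, hw1.h2.2.1, QuadraticMap.polar_smul_right, hw1.x'z']
            simp
          · rw [QuadraticMap.polar_sub_right, QuadraticMap.polar_smul_right, h.h1.2.2, hw1.xz', smul_zero, sub_zero]
        have a3 : HP Q z (z' - γ • w') := by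
          refine ⟨h.h2.1, ?_, ?_⟩
          · rw [qsub, qsmul, h.h2.2.1, hw1.h2.2.1, QuadraticMap.polar_smul_right, hw2.x'z']
            simp
          · rw [QuadraticMap.polar_sub_right, QuadraticMap.polar_smul_right, h.h2.2.2, hw2.xz', smul_zero, sub_zero]
        have b1 : OP Q y.1 w' x (x' - α • w') := by
          refine ⟨a1, a2, hyx, ?_, hw1s.x'z, ?_⟩
          · rw [QuadraticMap.polar_sub_right, QuadraticMap.polar_smul_right, a1.2.2, QuadraticMap.polar_comm, ← hα, smul_eq_mul,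
              mul_one, sub_self]
          · rw [QuadraticMap.polar_sub_right, QuadraticMap.polar_smul_right, hw1s.x'z', hw1.h2.ff, smul_zero, sub_zero]
        have b2 : OP Q y.1 w' z (z' - γ • w') := by
          refine ⟨a1, a3, hyz, ?_, hw2s.x'z, ?_⟩
          · rw [QuadraticMap.polar_sub_right, QuadraticMap.polar_smul_right, a1.2.2, QuadraticMap.polar_comm, ← hγ, smul_eq_mul,
              mul_one, sub_self]
          · rw [QuadraticMap.polar_sub_right, QuadraticMap.polar_smul_right, hw2s.x'z', hw1.h2.ff, smul_zero, sub_zero]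
        have b3 : OP Q x (x' - α • w') z (z' - γ • w') := by
          refine ⟨a2, a3, h.xz, ?_, ?_, ?_⟩
          · rw [QuadraticMap.polar_sub_right, QuadraticMap.polar_smul_right, h.xz', hw1.xz', smul_zero, sub_zero]
          · rw [QuadraticMap.polar_sub_left, QuadraticMap.polar_smul_left, h.x'z, hw2s.x'z, smul_zero, sub_zero]
          · simp only [QuadraticMap.polar_sub_right, QuadraticMap.polar_sub_left, QuadraticMap.polar_smul_left,
              QuadraticMap.polar_smul_right, h.x'z', hw1.x'z', hw2s.x'z', hw1.h2.ff, smul_zero, sub_zero]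
        rw [val2C B hψ h1 hc N b1 b2 b3, tr_ex ρ B a1 h.h1]
        ring
    · rw [ind_neg h1']
      have h2 : y.1 ∉ Submodule.span F {x, z} := by
        intro hc
        apply h1'
        exact ⟨(line_sing h.h1.1 h.h2.1 h.xz (Submodule.subset_span (by simp)) hc).2,
          (line_sing h.h1.1 h.h2.1 h.xz (Submodule.subset_span (by simp)) hc).2⟩
      rw [ind_neg h2]
      have hxx := h.h1.ee
      have hzz := h.h2.ee
      have hzx := polar_c Q h.xz
      set α := QuadraticMap.polar Q x y.1 with hα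
      set γ := QuadraticMap.polar Q z y.1 with hγ
      obtain ⟨a, b, hab⟩ : ∃ a b : F, a * α - b * (-γ) = 1 := by
        by_cases hα0 : α = 0
        · have hγ0 : γ ≠ 0 := by
            intro hc
            exact h1' ⟨hα0, hc⟩
          exact ⟨0, γ⁻¹, by field_simp; ring⟩
        · exact ⟨α⁻¹, 0, by field_simp; ring⟩
      have hd : a * α - b * (-γ) ≠ 0 := by rw [hab]; exact one_ne_zero
      rw [← av_line h.h1.1 h.h2.1 h.xz hd]
      have hh : HP Q (a • x + b • z) y.1 := by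
        refine ⟨?_, y.2.2, ?_⟩
        · rw [qadd, qsmul, qsmul, h.h1.1, h.h2.1, QuadraticMap.polar_smul_left, QuadraticMap.polar_smul_right, h.xz]
          simp
        · rw [QuadraticMap.polar_add_left, QuadraticMap.polar_smul_left, QuadraticMap.polar_smul_left, ← hα, ← hγ, smul_eq_mul,
            smul_eq_mul, ← hab]
          ring
      have hv : (-γ) • x + α • z ∈ perp2 Q (a • x + b • z) y.1 := by
        constructor
        · simp only [QuadraticMap.polar_add_left, QuadraticMap.polar_smul_left, QuadraticMap.polar_add_right,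
            QuadraticMap.polar_smul_right, hxx, hzz, hzx, h.xz, smul_zero, add_zero]
        · rw [QuadraticMap.polar_comm, QuadraticMap.polar_add_left, QuadraticMap.polar_smul_left, QuadraticMap.polar_smul_left,
            ← hα, ← hγ, smul_eq_mul, smul_eq_mul]
          ring
      have hQv : Q ((-γ) • x + α • z) = 0 := by
        rw [qadd, qsmul, qsmul, h.h1.1, h.h2.1, QuadraticMap.polar_smul_left, QuadraticMap.polar_smul_right, h.xz]
        simp
      have hv0 : (-γ) • x + α • z ≠ 0 := by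
        intro hc
        have := (LinearIndependent.pair_iff.1 h.indep) _ _ hc
        rw [this.1, this.2] at hd
        simp at hd
      rw [val3C B hψ h1 hc N hh hv hv0 hQv, tr_ex2 ρ B hh h.h1, tr_ex ρ B hh h.h1, ← ht3]
      ring
  rw [Finset.sum_congr rfl (fun y _ => key y), Finset.sum_add_distrib, Finset.sum_add_distrib, ← Finset.sum_mul, ← Finset.sum_mul,
    sum_Sg_ind, sum_Sg_ind, Finset.sum_const, Finset.card_univ, nsmul_eq_mul, card_Sg, nn_line2 h]
  have hxz' : nn Q (px Q x ⊓ px Q z) 0 = Nat.card F * (Nat.card F * m) := by rw [nn_xz h, N0.nW' h]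
  rw [hxz']
  push_cast
  ring

/-- the radical average is absorbed -/
theorem eQ_exC (B : Big Q) (hψ : ψ ≠ 1) (h1 : OneC Q ρ ψ c) (hc : c ≠ 0) {x x' z z' : V} (h : OP Q x x' z z') :
    eQ ρ x z * ex ρ x = eQ ρ x z := by
  have hx := h.h1.1
  have hz := h.h2.1
  have hxz := h.xz
  have hz0 : z ≠ 0 := h.h2.ne
  have hzW := (mem_perp_of h).1
  have hxz' : x ∈ px Q z := (QuadraticMap.polar_comm Q z x).trans hxz
  have hs := sum_pw (ρ := ρ) B hψ h.h1
  have key : ∀ r : perp2 Q x x', (r : V) ≠ 0 → eQ ρ x z * pw ρ ψ h.h1 (r : V) = 0 := by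
    intro r hr0
    by_cases hrz : (r : V) ∈ Submodule.span F {z}
    · have hQr : Q (r : V) ≠ c := by
        intro hcc
        obtain ⟨a, ha⟩ := Submodule.mem_span_singleton.1 hrz
        apply hc
        rw [← hcc, ← ha, qsmul, hz, mul_zero]
      rw [pw_eq_zero h.h1 ((h1.1 x x' h.h1 r r.2 hr0).2 hQr), mul_zero]
    · rw [← eQ_eq hx hz hxz, eAB_comm hx hz hxz, mul_assoc,
        av_partner ρ h.h1 _ hxz', (avx_mul hψ h.h1 inf_le_left r).2 (fun hc => hrz (dbl B h.h1 hzW hz0 hz r.2 hc)), mul_zero]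
  have e1 : eQ ρ x z * ∑ r : perp2 Q x x', pw ρ ψ h.h1 (r : V) = eQ ρ x z * pw ρ ψ h.h1 ((0 : perp2 Q x x') : V) := by
    rw [Finset.mul_sum]
    refine Finset.sum_eq_single (0 : perp2 Q x x') ?_ ?_
    · intro r _ hr
      exact key r (fun hcc => hr (Subtype.ext hcc))
    · intro hcc
      exact absurd (Finset.mem_univ _) hcc
  rw [hs, mul_one, Submodule.coe_zero, pw_zero] at e1
  exact e1.symm

theorem eQ_exC' (B : Big Q) (hψ : ψ ≠ 1) (h1 : OneC Q ρ ψ c) (hc : c ≠ 0) {x x' z z' : V} (h : OP Q x x' z z') {y : V}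
    (hy : y ∈ Submodule.span F {x, z}) (hy0 : y ≠ 0) : eQ ρ x z * ex ρ y = eQ ρ x z := by
  obtain ⟨g, a, ha, hg, hyg⟩ := line_trans B h hy hy0
  have hQg : Q (g.1.1 x) = 0 := by rw [og_Q, h.h1.1]
  rw [hyg, ex_scale ρ hQg a ha]
  have e1 := eQ_exC B hψ h1 hc h
  have e2 : (eQ ρ x z * ex ρ (g.1.1 x)) * ρ g = eQ ρ x z * ρ g := by
    rw [mul_assoc, ← ex_conj ρ g h.h1.1, ← mul_assoc, ← eQ_comm h.h1.1 h.h2.1 h.xz hg, mul_assoc, e1]
  have e3 : ρ g * ρ g⁻¹ = 1 := by rw [← map_mul, mul_inv_cancel, map_one]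
  calc eQ ρ x z * ex ρ (g.1.1 x) = (eQ ρ x z * ex ρ (g.1.1 x)) * ρ g * ρ g⁻¹ := by rw [mul_assoc _ (ρ g), e3, mul_one]
    _ = eQ ρ x z * ρ g * ρ g⁻¹ := by rw [e2]
    _ = eQ ρ x z := by rw [mul_assoc, e3, mul_one]

theorem tau1C (B : Big Q) (hψ : ψ ≠ 1) (h1 : OneC Q ρ ψ c) (hc : c ≠ 0) {A n : ℕ} (N : NumC Q A n c) {x x' z z' : V}
    (h : OP Q x x' z z') : LinearMap.trace ℂ E (ex ρ x * ex ρ z) = LinearMap.trace ℂ E (ex ρ x) - n := by
  have hx := h.h1.1
  have hz := h.h2.1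
  have hxz := h.xz
  have hxm : x ∈ Submodule.span F {x, z} := Submodule.subset_span (by simp)
  have hzm : z ∈ Submodule.span F {x, z} := Submodule.subset_span (by simp)
  have e1 : ex ρ x * ex ρ z = eQ ρ x z := by
    rw [← ex_ex hx hz hxz, ex_eQ_comm hx hz hxz hxm, eQ_exC B hψ h1 hc h, eQ_exC' B hψ h1 hc h hzm h.h2.ne]
  have e2 : eQ ρ x z = av ρ z (px Q z ⊓ px Q x) * ex ρ x := by
    have h3 := eQ_exC B hψ h1 hc h
    rw [← eQ_eq hx hz hxz, eAB_comm hx hz hxz, mul_assoc] at h3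
    have h4 : av ρ x (px Q x ⊓ px Q z) * ex ρ x = ex ρ x :=
      av_mul_of (fun _ hw => ex_absorb' hx hw.1)
    rw [h4] at h3
    rw [h3, ← eAB_comm hx hz hxz, eQ_eq hx hz hxz]
  rw [e1, e2, val1C B hψ h1 hc N h]

/-- the dimension for nonsingular weights -/
theorem masterC [ρ.IsIrreducible] (B : Big Q) (hψ : ψ ≠ 1) (h1 : OneC Q ρ ψ c) (hc : c ≠ 0) {A n m : ℕ} (N : NumC Q A n c)
    (N0 : Num Q A m) :
    (finrank ℂ E : ℂ) * (((Nat.card F : ℂ) ^ 2 * m + ((Nat.card F : ℂ) ^ 2 - 1) * ((Nat.card F : ℂ) ^ 3 * A) - 1) *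
        ((Nat.card F : ℂ) * n + (Nat.card F - 1) * ((Nat.card F : ℂ) ^ 2 * A)) -
      (m - 1) * ((Nat.card F : ℂ) * n + (Nat.card F - 1) * ((Nat.card F : ℂ) ^ 2 * A)) -
      (Nat.card F + 1) * (Nat.card F * ((Nat.card F : ℂ) * m + (Nat.card F - 1) * ((Nat.card F : ℂ) ^ 2 * A) - 1) * n -
        (m - 1) * ((Nat.card F : ℂ) * n + (Nat.card F - 1) * ((Nat.card F : ℂ) ^ 2 * A)))) =
    ((Nat.card F : ℂ) ^ 2 * m + ((Nat.card F : ℂ) ^ 2 - 1) * ((Nat.card F : ℂ) ^ 3 * A) - 1) *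
      ((Nat.card F : ℂ) * n + (Nat.card F - 1) * ((Nat.card F : ℂ) ^ 2 * A)) ^ 2 := by
  obtain ⟨x, x', z, z', t, t', u, hop, htx, htz, hs, -⟩ := B.fr
  obtain ⟨μ₀, hμ₀⟩ := SS_scalar ρ
  have hfr := finrankC B hψ h1 hc hop.h1
  have t1 := tr_SS (ρ := ρ) B hop.h1
  have t2 := tr_SS_ex (ρ := ρ) B hop
  have t3 := tr_SS_RC B hψ h1 hc N N0 hop
  have t4 := trRC B hψ h1 hc hop.h1 (mem_perp_of hop).1
  have t5 := tau1C B hψ h1 hc N hop
  rw [hμ₀] at t1 t2 t3
  rw [smul_mul_assoc, one_mul, map_smul, smul_eq_mul] at t2 t3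
  rw [map_smul, LinearMap.trace_one, smul_eq_mul] at t1
  have hnt : (nn Q ⊤ 0 : ℂ) = (Nat.card F : ℂ) ^ 2 * m + ((Nat.card F : ℂ) ^ 2 - 1) * ((Nat.card F : ℂ) ^ 3 * A) := by
    rw [N0.hn]
    have h1 : 1 ≤ Nat.card F ^ 2 := Nat.one_le_pow _ _ (lt_of_lt_of_le two_pos (two_le_q F))
    push_cast [Nat.cast_sub h1]
    ring
  rw [t4, nn_W1z hop, N.nW' hop] at t3
  rw [nWC_cast N hop.h1] at hfr
  rw [nW_cast N0 hop.h1, t5] at t2
  rw [hnt] at t1 t2 t3
  have hsne := nc_ne N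
  push_cast at t3
  set q : ℂ := (Nat.card F : ℂ) with hq
  set c0 := LinearMap.trace ℂ E (ex ρ x) with hc0
  set τ2 := LinearMap.trace ℂ E (ex ρ x' * ex ρ x) with hτ2
  obtain ⟨s, hsdef⟩ : ∃ s : ℂ, s = q * n + (q - 1) * (q ^ 2 * A) := ⟨_, rfl⟩
  rw [← hsdef] at hsne t3 hfr ⊢
  have hq0 : q ≠ 0 := q_ne F
  have hq1 : q - 1 ≠ 0 := by
    rw [hq, ← q_sub F]
    have := two_le_q F
    exact_mod_cast (by omega : Nat.card F - 1 ≠ 0)
  have hA0 : (A : ℂ) ≠ 0 := by
    have := A_pos N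
    exact_mod_cast this.ne'
  set d : ℂ := (finrank ℂ E : ℂ) with hd
  clear_value d τ2 c0
  obtain ⟨e, he⟩ : ∃ e, e = (c0 - τ2) / s := ⟨_, rfl⟩
  rw [← he] at t3
  rw [eq_div_iff hsne] at he
  have I : μ₀ = (m - 1) + (q ^ 2 - 1) * q ^ 3 * A * e := by
    have hne : (q - 1) * q ^ 2 * A ≠ 0 := mul_ne_zero (mul_ne_zero hq1 (pow_ne_zero 2 hq0)) hA0
    apply mul_left_cancel₀ hne
    rw [hsdef] at he hfr
    linear_combination t1 - t3 - μ₀ * hfr - ((q ^ 2 - 1) * (q ^ 3 * A)) * he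
  have II : μ₀ * s = q * (q * m + (q - 1) * (q ^ 2 * A) - 1) * n + (q - 1) * q ^ 4 * A * e * s := by
    linear_combination t1 - t2 - μ₀ * hfr - (q - 1) * q ^ 4 * A * he
  have III : (q - 1) * q ^ 3 * A * e * s = q * (q * m + (q - 1) * (q ^ 2 * A) - 1) * n - (m - 1) * s := by
    linear_combination II - s * I
  have V' : μ₀ * s = (m - 1) * s + (q + 1) * (q * (q * m + (q - 1) * (q ^ 2 * A) - 1) * n - (m - 1) * s) := by
    linear_combination s * I + (q + 1) * III
  linear_combination (-s : ℂ) * t1 + d * V' + (q ^ 2 * m + (q ^ 2 - 1) * (q ^ 3 * A) - 1) * s * hfr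

end E2

end CfsgLib.Oy
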