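import Cfsg.Agent.LibOy16

set_option autoImplicit false
set_option linter.unusedSectionVars false

/-! Triviality on the weight spaces over the fields with two and three elements (helper26). -/

namespace CfsgLib.Oy

open Cfsg.Agent.H22 Module CfsgLib.Wt CfsgLib.WtQ CfsgLib.WtSp CfsgLib.SLw

section field
variable {F : Type*} [Field F] [Finite F]

theorem c3 (h : Nat.card F = 3) : (3 : F) = 0 := by
  cases nonempty_fintype F
  have := FiniteField.cast_card_eq_zero F
  rw [← Nat.card_eq_fintype_card, h] at this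
  exact_mod_cast this

theorem c2 (h : Nat.card F = 2) : (2 : F) = 0 := by
  cases nonempty_fintype F
  have := FiniteField.cast_card_eq_zero F
  rw [← Nat.card_eq_fintype_card, h] at this
  exact_mod_cast this

theorem pm3 (h : Nat.card F = 3) (a : F) : a = 0 ∨ a = 1 ∨ a = -1 := by
  cases nonempty_fintype F
  have := FiniteField.pow_card a
  rw [← Nat.card_eq_fintype_card, h] at this
  have h2 : a * ((a - 1) * (a + 1)) = 0 := by linear_combination this
  rcases mul_eq_zero.1 h2 with h3 | h3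
  · exact Or.inl h3
  · rcases mul_eq_zero.1 h3 with h4 | h4
    · exact Or.inr (Or.inl (sub_eq_zero.1 h4))
    · exact Or.inr (Or.inr (eq_neg_of_add_eq_zero_left h4))

theorem pm2 (h : Nat.card F = 2) (a : F) : a = 0 ∨ a = 1 := by
  cases nonempty_fintype F
  have := FiniteField.pow_card a
  rw [← Nat.card_eq_fintype_card, h] at this
  have h2 : a * (a - 1) = 0 := by linear_combination this
  rcases mul_eq_zero.1 h2 with h3 | h3
  · exact Or.inl h3
  · exact Or.inr (sub_eq_zero.1 h3)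

end field

section gen
variable {F V : Type*} [Field F] [Finite F] [AddCommGroup V] [Module F V] {Q : QuadraticForm F V}

variable (Q) in
/-- special planes -/
def Pl (α β : V) : Prop :=
  (Nat.card F = 3 ∧ Q α ≠ 0 ∧ Q β = Q α ∧ QuadraticMap.polar Q α β = 0) ∨
    (Nat.card F = 2 ∧ Q α = 1 ∧ Q β = 1 ∧ QuadraticMap.polar Q α β = 1)

variable (Q) in
/-- good pairs -/
def Gd (w w' : V) : Prop := Q w ≠ 0 ∧ Q w' = Q w ∧
  ((Nat.card F = 3 ∧ QuadraticMap.polar Q w w' = 0) ∨ (Nat.card F = 2 ∧ QuadraticMap.polar Q w w' = 1))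

theorem gen3 (hF : Nat.card F = 3) {M : Submodule F V} {α β : V} (hα : α ∈ M) (hβ : β ∈ M) (h0 : Q α ≠ 0) (h1 : Q β = Q α)
    (h2 : QuadraticMap.polar Q α β = 0) (P : V → Prop) (P0 : P 0) (Padd : ∀ w₁ ∈ M, ∀ w₂ ∈ M, P w₁ → P w₂ → P (w₁ + w₂))
    (Pg : ∀ w ∈ M, ∀ w' ∈ M, Gd Q w w' → P w) : ∀ w ∈ M, P w := by
  have h3 := c3 hF
  have Pneg : ∀ w ∈ M, P w → P (-w) := by
    intro w hw hP
    have := Padd w hw w hw hP hP
    have e : w + w = -w := by
      have : (3 : F) • w = 0 := by rw [h3, zero_smul]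
      have e2 : (3 : F) • w = w + w + w := by
        rw [show (3 : F) = 1 + 1 + 1 by norm_num, add_smul, add_smul, one_smul]
      rw [e2] at this
      exact eq_neg_of_add_eq_zero_left this
    rwa [e] at this
  have Psm : ∀ (a : F) (w : V), w ∈ M → P w → P (a • w) := by
    intro a w hw hP
    rcases pm3 hF a with rfl | rfl | rfl
    · rw [zero_smul]; exact P0
    · rw [one_smul]; exact hP
    · rw [neg_one_smul]; exact Pneg w hw hP
  have h2' : QuadraticMap.polar Q β α = 0 := by rw [QuadraticMap.polar_comm]; exact h2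
  have pαα : QuadraticMap.polar Q α α = 2 * Q α := pself _ _
  have pββ : QuadraticMap.polar Q β β = 2 * Q α := by rw [pself, h1]
  have Pα : P α := Pg α hα β hβ ⟨h0, h1, Or.inl ⟨hF, h2⟩⟩
  have Pβ : P β := Pg β hβ α hα ⟨by rw [h1]; exact h0, h1.symm, Or.inl ⟨hF, h2'⟩⟩
  have h20 : (2 : F) ≠ 0 := by
    intro h
    have : (1 : F) = 0 := by linear_combination h3 - h
    exact one_ne_zero this
  -- orthogonal vectors
  have Py : ∀ y ∈ M, QuadraticMap.polar Q y α = 0 → QuadraticMap.polar Q y β = 0 → P y := by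
    intro y hy hyα hyβ
    rcases pm3 hF (Q y * (Q α)⁻¹) with h | h | h
    · have hQy : Q y = 0 := (mul_eq_zero.1 h).resolve_right (inv_ne_zero h0)
      have e1 : P (y + α) := by
        refine Pg _ (M.add_mem hy hα) β hβ ⟨?_, ?_, Or.inl ⟨hF, ?_⟩⟩
        · rw [qadd, hQy, hyα, zero_add, add_zero]; exact h0
        · rw [qadd, hQy, hyα, zero_add, add_zero]; exact h1
        · rw [QuadraticMap.polar_add_left, hyβ, h2, add_zero]
      have := Padd _ (M.add_mem hy hα) _ (M.neg_mem hα) e1 (Pneg α hα Pα)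
      rwa [add_neg_cancel_right] at this
    · have hQy : Q y = Q α := by
        rw [mul_inv_eq_iff_eq_mul₀ h0] at h
        rw [h, one_mul]
      exact Pg y hy α hα ⟨by rw [hQy]; exact h0, hQy.symm, Or.inl ⟨hF, hyα⟩⟩
    · have hQy : Q y = -Q α := by
        rw [mul_inv_eq_iff_eq_mul₀ h0] at h
        rw [h]; ring
      refine Pg y hy (α + β) (M.add_mem hα hβ) ⟨by rw [hQy]; exact neg_ne_zero.2 h0, ?_, Or.inl ⟨hF, ?_⟩⟩
      · rw [qadd, h1, h2, hQy]
        linear_combination Q α * h3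
      · rw [QuadraticMap.polar_add_right, hyα, hyβ, add_zero]
  intro w hw
  set a := QuadraticMap.polar Q w α * (2 * Q α)⁻¹ with ha
  set b := QuadraticMap.polar Q w β * (2 * Q α)⁻¹ with hb
  have hne : 2 * Q α ≠ 0 := mul_ne_zero h20 h0
  have hy : w - a • α - b • β ∈ M := M.sub_mem (M.sub_mem hw (M.smul_mem _ hα)) (M.smul_mem _ hβ)
  have e1 : P (w - a • α - b • β) := by
    apply Py _ hy
    · simp only [QuadraticMap.polar_sub_left, QuadraticMap.polar_smul_left, pαα, h2', smul_eq_mul, mul_zero, sub_zero]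
      rw [ha, mul_assoc, inv_mul_cancel₀ hne, mul_one, sub_self]
    · simp only [QuadraticMap.polar_sub_left, QuadraticMap.polar_smul_left, pββ, h2, smul_eq_mul, mul_zero, sub_zero]
      rw [hb, mul_assoc, inv_mul_cancel₀ hne, mul_one, sub_self]
  have e2 := Padd _ hy _ (M.smul_mem b hβ) e1 (Psm b β hβ Pβ)
  rw [sub_add_cancel] at e2
  have e3 := Padd _ (M.sub_mem hw (M.smul_mem _ hα)) _ (M.smul_mem a hα) e2 (Psm a α hα Pα)
  rwa [sub_add_cancel] at e3

theorem gen2 (hF : Nat.card F = 2) {M : Submodule F V} {α β : V} (hα : α ∈ M) (hβ : β ∈ M) (h0 : Q α = 1) (h1 : Q β = 1)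
    (h2 : QuadraticMap.polar Q α β = 1) (P : V → Prop) (P0 : P 0) (Padd : ∀ w₁ ∈ M, ∀ w₂ ∈ M, P w₁ → P w₂ → P (w₁ + w₂))
    (Pg : ∀ w ∈ M, ∀ w' ∈ M, Gd Q w w' → P w)
    (hrad : (∀ y ∈ M, (∀ w ∈ M, QuadraticMap.polar Q y w = 0) → Q y = 0) ∨
      ∃ p ∈ M, QuadraticMap.polar Q p α = 0 ∧ QuadraticMap.polar Q p β = 0 ∧ ∃ w ∈ M, QuadraticMap.polar Q p w ≠ 0) :
    ∀ w ∈ M, P w := by
  have h3 := c2 hF
  have vadd : ∀ w : V, w + w = 0 := by
    intro w
    have e2 : (2 : F) • w = w + w := by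
      rw [show (2 : F) = 1 + 1 by norm_num, add_smul, one_smul]
    rw [← e2, h3, zero_smul]
  have Psm : ∀ (a : F) (w : V), w ∈ M → P w → P (a • w) := by
    intro a w hw hP
    rcases pm2 hF a with rfl | rfl
    · rw [zero_smul]; exact P0
    · rw [one_smul]; exact hP
  have h2' : QuadraticMap.polar Q β α = 1 := by rw [QuadraticMap.polar_comm]; exact h2
  have pαα : QuadraticMap.polar Q α α = 0 := by rw [pself, h3, zero_mul]
  have pββ : QuadraticMap.polar Q β β = 0 := by rw [pself, h3, zero_mul]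
  have Pα : P α := Pg α hα β hβ ⟨by rw [h0]; exact one_ne_zero, by rw [h0, h1], Or.inr ⟨hF, h2⟩⟩
  have Pβ : P β := Pg β hβ α hα ⟨by rw [h1]; exact one_ne_zero, by rw [h0, h1], Or.inr ⟨hF, h2'⟩⟩
  -- singular orthogonal vectors
  have Ps : ∀ y ∈ M, QuadraticMap.polar Q y α = 0 → QuadraticMap.polar Q y β = 0 → Q y = 0 → P y := by
    intro y hy hyα hyβ hQy
    have e1 : P (y + α) := by
      refine Pg _ (M.add_mem hy hα) β hβ ⟨?_, ?_, Or.inr ⟨hF, ?_⟩⟩
      · rw [qadd, hQy, hyα, zero_add, add_zero, h0]; exact one_ne_zero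
      · rw [qadd, hQy, hyα, zero_add, add_zero, h0, h1]
      · rw [QuadraticMap.polar_add_left, hyβ, h2, zero_add]
    have := Padd _ (M.add_mem hy hα) _ hα e1 Pα
    rwa [add_assoc, vadd, add_zero] at this
  -- nonsingular, not in the radical
  have Pn : ∀ y ∈ M, QuadraticMap.polar Q y α = 0 → QuadraticMap.polar Q y β = 0 → Q y = 1 →
      (∃ w ∈ M, QuadraticMap.polar Q y w ≠ 0) → P y := by
    rintro y hy hyα hyβ hQy ⟨w, hw, hyw⟩
    have hyw1 : QuadraticMap.polar Q y w = 1 := (pm2 hF _).resolve_left hyw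
    set w3 := w + QuadraticMap.polar Q w β • α + QuadraticMap.polar Q w α • β with hw3
    have hw3M : w3 ∈ M := M.add_mem (M.add_mem hw (M.smul_mem _ hα)) (M.smul_mem _ hβ)
    have k1 : QuadraticMap.polar Q y w3 = 1 := by
      simp only [hw3, QuadraticMap.polar_add_right, QuadraticMap.polar_smul_right, hyα, hyβ, smul_zero, add_zero, hyw1]
    have k2 : QuadraticMap.polar Q w3 α = 0 := by
      simp only [hw3, QuadraticMap.polar_add_left, QuadraticMap.polar_smul_left, pαα, h2', smul_zero, add_zero, smul_eq_mul, mul_one]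
      linear_combination (QuadraticMap.polar Q w α) * h3
    rcases pm2 hF (Q w3) with h | h
    · refine Pg y hy (w3 + α) (M.add_mem hw3M hα) ⟨by rw [hQy]; exact one_ne_zero, ?_, Or.inr ⟨hF, ?_⟩⟩
      · rw [qadd, h, h0, k2, hQy, zero_add, add_zero]
      · rw [QuadraticMap.polar_add_right, k1, hyα, add_zero]
    · exact Pg y hy w3 hw3M ⟨by rw [hQy]; exact one_ne_zero, by rw [h, hQy], Or.inr ⟨hF, k1⟩⟩
  have Py : ∀ y ∈ M, QuadraticMap.polar Q y α = 0 → QuadraticMap.polar Q y β = 0 → P y := by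
    intro y hy hyα hyβ
    rcases pm2 hF (Q y) with h | h
    · exact Ps y hy hyα hyβ h
    · by_cases hr : ∃ w ∈ M, QuadraticMap.polar Q y w ≠ 0
      · exact Pn y hy hyα hyβ h hr
      · push Not at hr
        rcases hrad with hrad | ⟨p, hp, hpα, hpβ, w, hw, hpw⟩
        · exact absurd (hrad y hy hr) (by rw [h]; exact one_ne_zero)
        · have hyp : QuadraticMap.polar Q y p = 0 := hr p hp
          have key : P p ∧ P (y + p) := by
            rcases pm2 hF (Q p) with h4 | h4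
            · refine ⟨Ps p hp hpα hpβ h4, Pn _ (M.add_mem hy hp) ?_ ?_ ?_ ⟨w, hw, ?_⟩⟩
              · rw [QuadraticMap.polar_add_left, hyα, hpα, add_zero]
              · rw [QuadraticMap.polar_add_left, hyβ, hpβ, add_zero]
              · rw [qadd, h, h4, hyp, add_zero, add_zero]
              · rw [QuadraticMap.polar_add_left, hr w hw, zero_add]; exact hpw
            · refine ⟨Pn p hp hpα hpβ h4 ⟨w, hw, hpw⟩, Ps _ (M.add_mem hy hp) ?_ ?_ ?_⟩
              · rw [QuadraticMap.polar_add_left, hyα, hpα, add_zero]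
              · rw [QuadraticMap.polar_add_left, hyβ, hpβ, add_zero]
              · rw [qadd, h, h4, hyp, add_zero]
                linear_combination h3
          have := Padd _ (M.add_mem hy hp) _ hp key.2 key.1
          rwa [add_assoc, vadd, add_zero] at this
  intro w hw
  set a := QuadraticMap.polar Q w α with ha
  set b := QuadraticMap.polar Q w β with hb
  have hy : w + b • α + a • β ∈ M := M.add_mem (M.add_mem hw (M.smul_mem _ hα)) (M.smul_mem _ hβ)
  have e1 : P (w + b • α + a • β) := by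
    apply Py _ hy
    · simp only [QuadraticMap.polar_add_left, QuadraticMap.polar_smul_left, pαα, h2', smul_eq_mul, mul_zero, add_zero, mul_one]
      rw [← ha]
      linear_combination a * h3
    · simp only [QuadraticMap.polar_add_left, QuadraticMap.polar_smul_left, pββ, h2, smul_eq_mul, mul_zero, add_zero, mul_one]
      rw [← hb]
      linear_combination b * h3
  have e2 := Padd _ hy _ (M.smul_mem a hβ) e1 (Psm a β hβ Pβ)
  rw [add_assoc, vadd, add_zero] at e2
  have e3 := Padd _ (M.add_mem hw (M.smul_mem _ hα)) _ (M.smul_mem b hα) e2 (Psm b α hα Pα)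
  rwa [add_assoc, vadd, add_zero] at e3

theorem gen {M : Submodule F V} {α β : V} (hα : α ∈ M) (hβ : β ∈ M) (hp : Pl Q α β)
    (P : V → Prop) (P0 : P 0) (Padd : ∀ w₁ ∈ M, ∀ w₂ ∈ M, P w₁ → P w₂ → P (w₁ + w₂))
    (Pg : ∀ w ∈ M, ∀ w' ∈ M, Gd Q w w' → P w)
    (hrad : (∀ y ∈ M, (∀ w ∈ M, QuadraticMap.polar Q y w = 0) → Q y = 0) ∨
      ∃ p ∈ M, QuadraticMap.polar Q p α = 0 ∧ QuadraticMap.polar Q p β = 0 ∧ ∃ w ∈ M, QuadraticMap.polar Q p w ≠ 0) :
    ∀ w ∈ M, P w := by
  rcases hp with ⟨hF, h0, h1, h2⟩ | ⟨hF, h0, h1, h2⟩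
  · exact gen3 hF hα hβ h0 h1 h2 P P0 Padd Pg
  · exact gen2 hF hα hβ h0 h1 h2 P P0 Padd Pg hrad

end gen

section act
variable {F V : Type*} [Field F] [Finite F] [AddCommGroup V] [Module F V] [FiniteDimensional F V] {Q : QuadraticForm F V}
  {E : Type*} [AddCommGroup E] [Module ℂ E] {ρ : Representation ℂ (EG Q) E} {ψ : AddChar F ℂ}

/-- the element of a good pair -/
theorem gd_elt (B : Big Q) {w w' : V} (hg : Gd Q w w') : ∃ (g : EG Q) (u : V), (u = w ∨ u = w') ∧ g.1.1 u = w + u ∧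
    ∀ y, QuadraticMap.polar Q w y = 0 → QuadraticMap.polar Q w' y = 0 → g.1.1 y = y := by
  obtain ⟨x0, x0', z0, z0', t, t', u, hop, htx, htz, hhs, -⟩ := B.fr
  obtain ⟨h0, h1, h2⟩ := hg
  have h0' : Q w' ≠ 0 := by rw [h1]; exact h0
  have hmem := hhs.refl_mod B.hQ w' w h0' h0 h1
  have hfix : ∀ y, QuadraticMap.polar Q w y = 0 → QuadraticMap.polar Q w' y = 0 → (oRefl Q w h0 * oRefl Q w' h0').1 y = y := by
    intro y hy hy'
    rw [og_mul_apply, oRefl_apply, oRefl_apply, hy', mul_zero, zero_smul, sub_zero, hy, mul_zero, zero_smul, sub_zero]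
  rcases h2 with ⟨hF, h2⟩ | ⟨hF, h2⟩
  · refine ⟨⟨_, hmem⟩, w, Or.inl rfl, ?_, hfix⟩
    change (oRefl Q w h0 * oRefl Q w' h0').1 w = w + w
    have h2' : QuadraticMap.polar Q w' w = 0 := by rw [QuadraticMap.polar_comm]; exact h2
    rw [og_mul_apply, oRefl_apply, oRefl_apply, h2', mul_zero, zero_smul, sub_zero, pself]
    have h3 := c3 hF
    have e : (Q w)⁻¹ * (2 * Q w) = 2 := by field_simp
    rw [e]
    have e2 : w - (2 : F) • w - (w + w) = -((3 : F) • w) := by module
    rw [h3, zero_smul, neg_zero, sub_eq_zero] at e2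
    exact e2
  · refine ⟨⟨_, hmem⟩, w', Or.inr rfl, ?_, hfix⟩
    change (oRefl Q w h0 * oRefl Q w' h0').1 w' = w + w'
    have h3 := c2 hF
    have hw1 : Q w = 1 := (pm2 hF _).resolve_left h0
    have hw1' : Q w' = 1 := h1.trans hw1
    rw [og_mul_apply, oRefl_apply, oRefl_apply, pself, hw1', hw1, inv_one, one_mul, mul_one, one_mul, h3, zero_smul, sub_zero, h2,
      one_smul]
    have e2 : w' - w - (w + w') = -((2 : F) • w) := by module
    rw [h3, zero_smul, neg_zero, sub_eq_zero] at e2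
    exact e2

theorem good_fix (B : Big Q) {x x' : V} (h : HP Q x x') {r : V} (h1 : finrank ℂ (wx ρ ψ h r) = 1) {z : V} (hz : Q z = 0)
    (hzx : QuadraticMap.polar Q z x = 0) (hzx' : QuadraticMap.polar Q z x' = 0) (hzr : QuadraticMap.polar Q z r = 0)
    {w w' : V} (hg : Gd Q w w') (hw : w ∈ perp2 Q x x') (hw' : w' ∈ perp2 Q x x') (hwr : QuadraticMap.polar Q w r = 0)
    (hw'r : QuadraticMap.polar Q w' r = 0) (hzw : QuadraticMap.polar Q z w = 0) (hzw' : QuadraticMap.polar Q z w' = 0)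
    {v : E} (hv : v ∈ wx ρ ψ h r) : ρ (El Q z w) v = v := by
  obtain ⟨g, u, hu, hgu, hgf⟩ := gd_elt B hg
  have hu1 : u ∈ perp2 Q x x' := by rcases hu with rfl | rfl <;> assumption
  have hu2 : QuadraticMap.polar Q u r = 0 := by rcases hu with rfl | rfl <;> assumption
  have hu3 : QuadraticMap.polar Q z u = 0 := by rcases hu with rfl | rfl <;> assumption
  have hgx : g.1.1 x = x := hgf x (polar_c Q hw.1) (polar_c Q hw'.1)
  have hgx' : g.1.1 x' = x' := hgf x' (polar_c Q hw.2) (polar_c Q hw'.2)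
  have hgr : g.1.1 r = r := hgf r hwr hw'r
  have hgz : g.1.1 z = z := hgf z (polar_c Q hzw) (polar_c Q hzw')
  have hT : g * El Q z u = El Q z w * (El Q z u * g) := by
    have e1 := El_conj g hz hu3
    rw [hgz, hgu, mul_inv_eq_iff_eq_mul] at e1
    rw [e1, ← mul_assoc, El_add hz hzw hu3]
  refine comm_trivial ρ (jx h) (chi Q ψ _ r) h1 hT ?_ ?_ hv
  · intro y hy
    have := wx_stab ρ ψ h g hgx hgx' (r := r) hy
    rwa [hgr] at this
  · intro y hy
    have := wx_stab ρ ψ h (El Q z u) (El_fix hz hu3 hzx (polar_c Q hu1.1)) (El_fix hz hu3 hzx' (polar_c Q hu1.2)) (r := r) hy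
    rwa [El_fix hz hu3 hzr hu2] at this

/-- the submodule attached to a configuration -/
def Mc (Q : QuadraticForm F V) (x x' r z : V) : Submodule F V := perp2 Q x x' ⊓ (px Q r ⊓ px Q z)

theorem gen_fix (B : Big Q) {x x' : V} (h : HP Q x x') {r : V} (h1 : finrank ℂ (wx ρ ψ h r) = 1) {z : V} (hz : Q z = 0)
    (hzm : z ∈ perp2 Q x x') (hzr : QuadraticMap.polar Q z r = 0) {α β : V} (hα : α ∈ Mc Q x x' r z) (hβ : β ∈ Mc Q x x' r z)
    (hp : Pl Q α β) (hrad : (∀ y ∈ Mc Q x x' r z, (∀ w ∈ Mc Q x x' r z, QuadraticMap.polar Q y w = 0) → Q y = 0) ∨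
      ∃ p ∈ Mc Q x x' r z, QuadraticMap.polar Q p α = 0 ∧ QuadraticMap.polar Q p β = 0 ∧
        ∃ w ∈ Mc Q x x' r z, QuadraticMap.polar Q p w ≠ 0)
    {v : E} (hv : v ∈ wx ρ ψ h r) {w : V} (hw : w ∈ Mc Q x x' r z) : ρ (El Q z w) v = v := by
  refine gen hα hβ hp (fun w => ρ (El Q z w) v = v) ?_ ?_ ?_ hrad w hw
  · change ρ (El Q z 0) v = v
    rw [El_zero z hz, map_one]
    rfl
  · intro w₁ hw₁ w₂ hw₂ e1 e2
    change ρ (El Q z (w₁ + w₂)) v = v
    rw [← El_add hz hw₁.2.2 hw₂.2.2, map_mul, Module.End.mul_apply, e2, e1]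
  · intro w hw w' hw' hg
    exact good_fix B h h1 hz (polar_c Q hzm.1) (polar_c Q hzm.2) hzr hg hw.1 hw'.1 (polar_c Q hw.2.1) (polar_c Q hw'.2.1)
      hw.2.2 hw'.2.2 hv

end act

end CfsgLib.Oy
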