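import Cfsg.Agent.LibOy17

set_option autoImplicit false
set_option linter.unusedSectionVars false

/-! Configurations (helper26). -/

namespace CfsgLib.Oy

open Cfsg.Agent.H22 Module CfsgLib.Wt CfsgLib.WtQ CfsgLib.WtSp CfsgLib.SLw

section conf
variable {F V : Type*} [Field F] [Finite F] [AddCommGroup V] [Module F V] [FiniteDimensional F V] {Q : QuadraticForm F V}

variable (Q) in
/-- three hyperbolic pairs and a special plane -/
def Std : Prop := ∃ x x' z z' t t' α β : V, OP Q x x' z z' ∧ OP Q x x' t t' ∧ OP Q z z' t t' ∧ Pl Q α β ∧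
    (α ∈ perp2 Q x x' ∧ α ∈ perp2 Q z z' ∧ α ∈ perp2 Q t t') ∧ (β ∈ perp2 Q x x' ∧ β ∈ perp2 Q z z' ∧ β ∈ perp2 Q t t')

variable (Q) in
/-- four hyperbolic pairs and a special plane -/
def Std4 : Prop := ∃ x x' z z' t t' y y' α β : V, OP Q x x' z z' ∧ OP Q x x' t t' ∧ OP Q z z' t t' ∧ Pl Q α β ∧
    (α ∈ perp2 Q x x' ∧ α ∈ perp2 Q z z' ∧ α ∈ perp2 Q t t') ∧ (β ∈ perp2 Q x x' ∧ β ∈ perp2 Q z z' ∧ β ∈ perp2 Q t t') ∧
    OP Q x x' y y' ∧ OP Q z z' y y' ∧ OP Q t t' y y' ∧ (α ∈ perp2 Q y y' ∧ β ∈ perp2 Q y y')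

theorem qfam3 {x x' z z' t t' : V} (h1 : OP Q x x' z z') (h2 : OP Q x x' t t') (h3 : OP Q z z' t t') :
    QFam Q 3 ![(x, x'), (z, z'), (t, t')] := by
  refine ⟨?_, ?_⟩
  · intro i
    fin_cases i
    · exact ⟨h1.h1.1, h1.h1.2.1⟩
    · exact ⟨h1.h2.1, h1.h2.2.1⟩
    · exact ⟨h2.h2.1, h2.h2.2.1⟩
  · have s1 := h1.symm
    have s2 := h2.symm
    have s3 := h3.symm
    intro i j
    fin_cases i <;> fin_cases j
    · exact ⟨h1.h1.ee, h1.h1.ff, by simpa using h1.h1.2.2⟩
    · exact ⟨h1.xz, h1.x'z', by simpa using h1.xz'⟩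
    · exact ⟨h2.xz, h2.x'z', by simpa using h2.xz'⟩
    · exact ⟨s1.xz, s1.x'z', by simpa using s1.xz'⟩
    · exact ⟨h1.h2.ee, h1.h2.ff, by simpa using h1.h2.2.2⟩
    · exact ⟨h3.xz, h3.x'z', by simpa using h3.xz'⟩
    · exact ⟨s2.xz, s2.x'z', by simpa using s2.xz'⟩
    · exact ⟨s3.xz, s3.x'z', by simpa using s3.xz'⟩
    · exact ⟨h2.h2.ee, h2.h2.ff, by simpa using h2.h2.2.2⟩

theorem witt3 (hQ : (QuadraticMap.polarBilin Q).Nondegenerate) {x x' z z' t t' y y' w w' s s' : V}
    (h1 : OP Q x x' z z') (h2 : OP Q x x' t t') (h3 : OP Q z z' t t')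
    (k1 : OP Q y y' w w') (k2 : OP Q y y' s s') (k3 : OP Q w w' s s') :
    ∃ g : OGrp Q, g.1 x = y ∧ g.1 x' = y' ∧ g.1 z = w ∧ g.1 z' = w' ∧ g.1 t = s ∧ g.1 t' = s' := by
  have f1 := qfam3 h1 h2 h3
  have f2 := qfam3 k1 k2 k3
  obtain ⟨g, hg⟩ := witt_fam hQ (QFam.vec _) (QFam.vec _) f1.indep f2.indep
      (fun i => by rw [f1.Q_vec, f2.Q_vec]) (fun i j => QFam.polar_vec f1 f2 i j)
  exact ⟨g, hg (Sum.inl 0), hg (Sum.inr 0), hg (Sum.inl 1), hg (Sum.inr 1), hg (Sum.inl 2), hg (Sum.inr 2)⟩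

theorem indep5 {x x' z z' s : V} (h : OP Q x x' z z') (h1 : s ∈ perp2 Q x x') (h2 : s ∈ perp2 Q z z') (hs0 : s ≠ 0) :
    LinearIndependent F ![x, x', z, z', s] := by
  rw [Fintype.linearIndependent_iff]
  intro g hg
  have hsy := h.symm
  rw [Fin.sum_univ_five] at hg
  change g 0 • x + g 1 • x' + g 2 • z + g 3 • z' + g 4 • s = 0 at hg
  have e1 : g 1 = 0 := by
    have := congrArg (QuadraticMap.polar Q x) hg
    simpa [QuadraticMap.polar_add_right, QuadraticMap.polar_smul_right, h.h1.ee, h.h1.2.2, h.xz, h.xz',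
      show QuadraticMap.polar Q x s = 0 from h1.1] using this
  have e0 : g 0 = 0 := by
    have := congrArg (QuadraticMap.polar Q x') hg
    simpa [QuadraticMap.polar_add_right, QuadraticMap.polar_smul_right, h.h1.fe, h.h1.ff, h.x'z, h.x'z',
      show QuadraticMap.polar Q x' s = 0 from h1.2] using this
  have e3 : g 3 = 0 := by
    have := congrArg (QuadraticMap.polar Q z) hg
    simpa [QuadraticMap.polar_add_right, QuadraticMap.polar_smul_right, h.h2.ee, h.h2.2.2, hsy.xz, hsy.xz',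
      show QuadraticMap.polar Q z s = 0 from h2.1] using this
  have e2 : g 2 = 0 := by
    have := congrArg (QuadraticMap.polar Q z') hg
    simpa [QuadraticMap.polar_add_right, QuadraticMap.polar_smul_right, h.h2.fe, h.h2.ff, hsy.x'z, hsy.x'z',
      show QuadraticMap.polar Q z' s = 0 from h2.2] using this
  rw [e0, e1, e2, e3, zero_smul, zero_smul, zero_smul, zero_smul, zero_add, zero_add, zero_add, zero_add] at hg
  have e4 : g 4 = 0 := (smul_eq_zero.1 hg).resolve_right hs0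
  intro i
  fin_cases i
  · exact e0
  · exact e1
  · exact e2
  · exact e3
  · exact e4

theorem witt5 (hQ : (QuadraticMap.polarBilin Q).Nondegenerate) {x x' z z' s y y' w w' r : V} (h : OP Q x x' z z')
    (h1 : s ∈ perp2 Q x x') (h2 : s ∈ perp2 Q z z') (hs0 : s ≠ 0) (k : OP Q y y' w w')
    (k1 : r ∈ perp2 Q y y') (k2 : r ∈ perp2 Q w w') (hr0 : r ≠ 0) (hsr : Q s = Q r) :
    ∃ g : OGrp Q, g.1 x = y ∧ g.1 x' = y' ∧ g.1 z = w ∧ g.1 z' = w' ∧ g.1 s = r := by
  have hsy := h.symm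
  have ksy := k.symm
  obtain ⟨g, hg⟩ := witt_fam hQ ![x, x', z, z', s] ![y, y', w, w', r] (indep5 h h1 h2 hs0) (indep5 k k1 k2 hr0)
    (by
      intro i
      fin_cases i
      · exact h.h1.1.trans k.h1.1.symm
      · exact h.h1.2.1.trans k.h1.2.1.symm
      · exact h.h2.1.trans k.h2.1.symm
      · exact h.h2.2.1.trans k.h2.2.1.symm
      · exact hsr)
    (by
      have a1 : QuadraticMap.polar Q x s = QuadraticMap.polar Q y r := h1.1.trans k1.1.symm
      have a2 : QuadraticMap.polar Q x' s = QuadraticMap.polar Q y' r := h1.2.trans k1.2.symm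
      have a3 : QuadraticMap.polar Q z s = QuadraticMap.polar Q w r := h2.1.trans k2.1.symm
      have a4 : QuadraticMap.polar Q z' s = QuadraticMap.polar Q w' r := h2.2.trans k2.2.symm
      have sw : ∀ {a b c d : V}, QuadraticMap.polar Q a b = QuadraticMap.polar Q c d → QuadraticMap.polar Q b a = QuadraticMap.polar Q d c := by
        intro a b c d hh
        rw [QuadraticMap.polar_comm, hh, QuadraticMap.polar_comm]
      intro i j
      fin_cases i <;> fin_cases j
      · exact h.h1.ee.trans k.h1.ee.symm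
      · exact h.h1.2.2.trans k.h1.2.2.symm
      · exact h.xz.trans k.xz.symm
      · exact h.xz'.trans k.xz'.symm
      · exact a1
      · exact h.h1.fe.trans k.h1.fe.symm
      · exact h.h1.ff.trans k.h1.ff.symm
      · exact h.x'z.trans k.x'z.symm
      · exact h.x'z'.trans k.x'z'.symm
      · exact a2
      · exact hsy.xz.trans ksy.xz.symm
      · exact hsy.xz'.trans ksy.xz'.symm
      · exact h.h2.ee.trans k.h2.ee.symm
      · exact h.h2.2.2.trans k.h2.2.2.symm
      · exact a3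
      · exact hsy.x'z.trans ksy.x'z.symm
      · exact hsy.x'z'.trans ksy.x'z'.symm
      · exact h.h2.fe.trans k.h2.fe.symm
      · exact h.h2.ff.trans k.h2.ff.symm
      · exact a4
      · exact sw a1
      · exact sw a2
      · exact sw a3
      · exact sw a4
      · change QuadraticMap.polar Q s s = QuadraticMap.polar Q r r
        rw [pself, pself, hsr])
  exact ⟨g, hg 0, hg 1, hg 2, hg 3, hg 4⟩

theorem Pl.map {α β : V} (h : Pl Q α β) (g : OGrp Q) : Pl Q (g.1 α) (g.1 β) := by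
  unfold Pl at h ⊢
  rw [og_Q, og_Q, og_polar]
  exact h

theorem perp2_map {x x' α : V} (h : α ∈ perp2 Q x x') (g : OGrp Q) : g.1 α ∈ perp2 Q (g.1 x) (g.1 x') := by
  constructor
  · rw [og_polar]; exact h.1
  · rw [og_polar]; exact h.2

/-- frames through two orthogonal singular vectors -/
theorem frame3 (B : Big Q) {x x' r z : V} (h : HP Q x x') (hr : r ∈ perp2 Q x x') (hz : z ∈ perp2 Q x x') (hr0 : r ≠ 0)
    (hQr : Q r = 0) (hQz : Q z = 0) (hrz : QuadraticMap.polar Q r z = 0) (hzr : z ∉ Submodule.span F {r}) :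
    ∃ r' z', OP Q x x' r r' ∧ OP Q x x' z z' ∧ OP Q r r' z z' := by
  have hz0 : z ≠ 0 := by
    rintro rfl
    exact hzr (Submodule.zero_mem _)
  have hnot : r ∉ Submodule.span F {x, x'} ⊔ Submodule.span F {z} := by
    intro hc
    obtain ⟨y, hy, y', hy', hyy⟩ := Submodule.mem_sup.1 hc
    obtain ⟨a, b, rfl⟩ := Submodule.mem_span_pair.1 hy
    obtain ⟨d, rfl⟩ := Submodule.mem_span_singleton.1 hy'
    have e1 : QuadraticMap.polar Q x r = 0 := hr.1
    have e2 : QuadraticMap.polar Q x' r = 0 := hr.2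
    rw [← hyy] at e1 e2
    simp only [QuadraticMap.polar_add_right, QuadraticMap.polar_smul_right, h.ee, h.2.2, h.fe, h.ff,
      show QuadraticMap.polar Q x z = 0 from hz.1, show QuadraticMap.polar Q x' z = 0 from hz.2, smul_eq_mul, mul_zero, mul_one,
      zero_add, add_zero] at e1 e2
    rw [e1, e2, zero_smul, zero_smul, zero_add, zero_add] at hyy
    have hd : d ≠ 0 := by
      rintro rfl
      rw [zero_smul] at hyy
      exact hr0 hyy.symm
    apply hzr
    rw [Submodule.mem_span_singleton]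
    exact ⟨d⁻¹, by rw [← hyy, smul_smul, inv_mul_cancel₀ hd, one_smul]⟩
  obtain ⟨r', k1, k2⟩ := B.exists_partner _ r hnot (fun y hy => by
    obtain ⟨y1, hy1, y2, hy2, rfl⟩ := Submodule.mem_sup.1 hy
    obtain ⟨a, b, rfl⟩ := Submodule.mem_span_pair.1 hy1
    obtain ⟨d, rfl⟩ := Submodule.mem_span_singleton.1 hy2
    simp only [QuadraticMap.polar_add_left, QuadraticMap.polar_smul_left, show QuadraticMap.polar Q x r = 0 from hr.1,
      show QuadraticMap.polar Q x' r = 0 from hr.2, polar_c Q hrz, smul_zero, add_zero]) hQr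
  have hxr' : QuadraticMap.polar Q x r' = 0 := k1 x (Submodule.mem_sup_left (Submodule.subset_span (by simp)))
  have hx'r' : QuadraticMap.polar Q x' r' = 0 := k1 x' (Submodule.mem_sup_left (Submodule.subset_span (by simp)))
  have hzr' : QuadraticMap.polar Q z r' = 0 := k1 z (Submodule.mem_sup_right (Submodule.subset_span (by simp)))
  have o1 : OP Q x x' r r' := ⟨h, k2, hr.1, hxr', hr.2, hx'r'⟩
  obtain ⟨z', o2, o3⟩ := B.ext_OP3' o1 hz0 hQz hz ⟨hrz, polar_c Q hzr'⟩
  exact ⟨r', z', o1, o2, o3⟩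

end conf

section trv
variable {F V : Type*} [Field F] [Finite F] [AddCommGroup V] [Module F V] [FiniteDimensional F V] {Q : QuadraticForm F V}
  {E : Type*} [AddCommGroup E] [Module ℂ E] {ρ : Representation ℂ (EG Q) E} {ψ : AddChar F ℂ}

theorem trvS (B : Big Q) (S : Std Q) : Trv Q ρ ψ 0 := by
  intro x x' h r hr hr0 hQr h1 z w hz hw hQz hzr hwr hzw v hv
  obtain ⟨x0, x0', z0, z0', t0, t0', α0, β0, o1, o2, o3, hp, ⟨ha1, ha2, ha3⟩, hb1, hb2, hb3⟩ := S
  by_cases hsp : z ∈ Submodule.span F {r}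
  · -- the case of the vector itself
    obtain ⟨a, rfl⟩ := Submodule.mem_span_singleton.1 hsp
    rw [El_scale a hQr (polar_c Q hwr)]
    obtain ⟨r', k1, k2⟩ := B.exists_partner (Submodule.span F {x, x'}) r (not_mem_span_pair h hr0 hr.1 hr.2) (fun y hy => by
      obtain ⟨c, d, rfl⟩ := Submodule.mem_span_pair.1 hy
      rw [QuadraticMap.polar_add_left, QuadraticMap.polar_smul_left, QuadraticMap.polar_smul_left, hr.1, hr.2, smul_zero,
        smul_zero, add_zero]) hQr
    have op : OP Q x x' r r' := ⟨h, k2, hr.1, k1 x (Submodule.subset_span (by simp)), hr.2, k1 x' (Submodule.subset_span (by simp))⟩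
    obtain ⟨g, g1, g2, g3, g4⟩ := B.conj_OP o1 op
    have m : ∀ {y : V}, y ∈ perp2 Q x0 x0' → y ∈ perp2 Q z0 z0' → g.1.1 y ∈ Mc Q x x' r r := by
      intro y hy1 hy2
      have e1 := perp2_map hy1 g.1
      have e2 := perp2_map hy2 g.1
      rw [g1, g2] at e1
      rw [g3, g4] at e2
      exact ⟨e1, e2.1, e2.1⟩
    have hrr : QuadraticMap.polar Q r r = 0 := k2.ee
    refine gen_fix B h h1 hQr hr hrr (m ha1 ha2) (m hb1 hb2) (hp.map g.1) (Or.inl ?_) hv (w := a • w) ?_
    · intro y hy hyM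
      have := dbl B h hr hr0 hQr hy.1 (fun w hw => hyM w ⟨hw.1, hw.2, hw.2⟩)
      obtain ⟨b, hb⟩ := Submodule.mem_span_singleton.1 this
      rw [← hb, qsmul, hQr, mul_zero]
    · have hwr' : QuadraticMap.polar Q r (a • w) = 0 := by rw [QuadraticMap.polar_smul_right, polar_c Q hwr, smul_zero]
      exact ⟨Submodule.smul_mem _ _ hw, hwr', hwr'⟩
  · obtain ⟨r', z', p1, p2, p3⟩ := frame3 B h hr hz hr0 hQr hQz (polar_c Q hzr) hsp
    obtain ⟨g, g1, g2, g3, g4, g5, g6⟩ := witt3 B.hQ o1 o2 o3 p1 p2 p3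
    have m : ∀ {y : V}, y ∈ perp2 Q x0 x0' → y ∈ perp2 Q z0 z0' → y ∈ perp2 Q t0 t0' → g.1 y ∈ Mc Q x x' r z := by
      intro y hy1 hy2 hy3
      have e1 := perp2_map hy1 g
      have e2 := perp2_map hy2 g
      have e3 := perp2_map hy3 g
      rw [g1, g2] at e1
      rw [g3, g4] at e2
      rw [g5, g6] at e3
      exact ⟨e1, e2.1, e3.1⟩
    refine gen_fix B h h1 hQz hz hzr (m ha1 ha2 ha3) (m hb1 hb2 hb3) (hp.map g) (Or.inl ?_) hv (w := w) ?_
    · intro y hy hyM
      have s1 := p1.symm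
      have s2 := p2.symm
      have s3 := p3.symm
      have hy0 : y - QuadraticMap.polar Q r' y • r - QuadraticMap.polar Q z' y • z = 0 := by
        apply perp2_nondeg B.hQ h _ (Submodule.sub_mem _ (Submodule.sub_mem _ hy.1 (Submodule.smul_mem _ _ hr)) (Submodule.smul_mem _ _ hz))
        intro u hu
        have hu1 : u - QuadraticMap.polar Q r u • r' - QuadraticMap.polar Q z u • z' ∈ Mc Q x x' r z := by
          refine ⟨Submodule.sub_mem _ (Submodule.sub_mem _ hu (Submodule.smul_mem _ _ (mem_perp_of p1).2))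
            (Submodule.smul_mem _ _ (mem_perp_of p2).2), ?_, ?_⟩
          · change QuadraticMap.polar Q r _ = 0
            simp only [QuadraticMap.polar_sub_right, QuadraticMap.polar_smul_right, p1.h2.2.2, p3.xz', smul_eq_mul, mul_one,
              mul_zero, sub_zero, sub_self]
          · change QuadraticMap.polar Q z _ = 0
            simp only [QuadraticMap.polar_sub_right, QuadraticMap.polar_smul_right, p2.h2.2.2, s3.xz', smul_eq_mul, mul_one,
              mul_zero, sub_zero, sub_self]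
        have e := hyM _ hu1
        simp only [QuadraticMap.polar_sub_right, QuadraticMap.polar_smul_right, smul_eq_mul] at e
        simp only [QuadraticMap.polar_sub_left, QuadraticMap.polar_smul_left, smul_eq_mul]
        rw [QuadraticMap.polar_comm Q r' y, QuadraticMap.polar_comm Q z' y]
        linear_combination e
      have hyl : y ∈ Submodule.span F {r, z} := by
        rw [sub_sub, sub_eq_zero] at hy0
        exact Submodule.mem_span_pair.2 ⟨_, _, hy0.symm⟩
      exact (line_sing hQr hQz (polar_c Q hzr) hyl hyl).1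
    · exact ⟨hw, polar_c Q hwr, hzw⟩

theorem trvC (B : Big Q) (S : Std4 Q) {c : F} (hc : c ≠ 0) : Trv Q ρ ψ c := by
  intro x x' h s hs hs0 hQs h1 z w hz hw hQz hzs hws hzw v hv
  obtain ⟨x0, x0', z0, z0', t0, t0', y0, y0', α0, β0, o1, o2, o3, hp, ⟨ha1, ha2, ha3⟩, ⟨hb1, hb2, hb3⟩, q1, q2, q3, ha4, hb4⟩ := S
  by_cases hz0 : z = 0
  · rw [hz0, El_zero_left, map_one]
    rfl
  have hnot : z ∉ Submodule.span F {x, x'} ⊔ Submodule.span F {s} := by
    intro hcc
    obtain ⟨y, hy, y', hy', hyy⟩ := Submodule.mem_sup.1 hcc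
    obtain ⟨a, b, rfl⟩ := Submodule.mem_span_pair.1 hy
    obtain ⟨d, rfl⟩ := Submodule.mem_span_singleton.1 hy'
    have e1 : QuadraticMap.polar Q x z = 0 := hz.1
    have e2 : QuadraticMap.polar Q x' z = 0 := hz.2
    rw [← hyy] at e1 e2
    simp only [QuadraticMap.polar_add_right, QuadraticMap.polar_smul_right, h.ee, h.2.2, h.fe, h.ff,
      show QuadraticMap.polar Q x s = 0 from hs.1, show QuadraticMap.polar Q x' s = 0 from hs.2, smul_eq_mul, mul_zero, mul_one,
      zero_add, add_zero] at e1 e2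
    rw [e1, e2, zero_smul, zero_smul, zero_add, zero_add] at hyy
    have e3 := hQz
    rw [← hyy, qsmul, hQs] at e3
    have hd : d = 0 := by
      rcases mul_eq_zero.1 e3 with h4 | h4
      · exact mul_self_eq_zero.1 h4
      · exact absurd h4 hc
    rw [hd, zero_smul] at hyy
    exact hz0 hyy.symm
  obtain ⟨z', k1, k2⟩ := B.exists_partner _ z hnot (fun y hy => by
    obtain ⟨y1, hy1, y2, hy2, rfl⟩ := Submodule.mem_sup.1 hy
    obtain ⟨a, b, rfl⟩ := Submodule.mem_span_pair.1 hy1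
    obtain ⟨d, rfl⟩ := Submodule.mem_span_singleton.1 hy2
    simp only [QuadraticMap.polar_add_left, QuadraticMap.polar_smul_left, show QuadraticMap.polar Q x z = 0 from hz.1,
      show QuadraticMap.polar Q x' z = 0 from hz.2, polar_c Q hzs, smul_zero, add_zero]) hQz
  have hxz' : QuadraticMap.polar Q x z' = 0 := k1 x (Submodule.mem_sup_left (Submodule.subset_span (by simp)))
  have hx'z' : QuadraticMap.polar Q x' z' = 0 := k1 x' (Submodule.mem_sup_left (Submodule.subset_span (by simp)))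
  have hsz' : QuadraticMap.polar Q s z' = 0 := k1 s (Submodule.mem_sup_right (Submodule.subset_span (by simp)))
  have op : OP Q x x' z z' := ⟨h, k2, hz.1, hxz', hz.2, hx'z'⟩
  have hu1 : t0 + c • t0' ∈ perp2 Q x0 x0' := Submodule.add_mem _ (mem_perp_of o2).1 (Submodule.smul_mem _ _ (mem_perp_of o2).2)
  have hu2 : t0 + c • t0' ∈ perp2 Q z0 z0' := Submodule.add_mem _ (mem_perp_of o3).1 (Submodule.smul_mem _ _ (mem_perp_of o3).2)
  have hQu : Q (t0 + c • t0') = c := o2.h2.q1 c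
  have hu0 : t0 + c • t0' ≠ 0 := by
    intro h0
    rw [h0, map_zero] at hQu
    exact hc hQu.symm
  obtain ⟨g, g1, g2, g3, g4, g5⟩ := witt5 B.hQ o1 hu1 hu2 hu0 op hs ⟨hzs, polar_c Q hsz'⟩ hs0 (hQu.trans hQs.symm)
  have m : ∀ {y : V}, y ∈ perp2 Q x0 x0' → y ∈ perp2 Q z0 z0' → y ∈ perp2 Q t0 t0' → g.1 y ∈ Mc Q x x' s z := by
    intro y hy1 hy2 hy3
    have e1 := perp2_map hy1 g
    have e2 := perp2_map hy2 g
    rw [g1, g2] at e1
    rw [g3, g4] at e2
    refine ⟨e1, ?_, e2.1⟩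
    change QuadraticMap.polar Q s (g.1 y) = 0
    rw [← g5, og_polar, QuadraticMap.polar_add_left, QuadraticMap.polar_smul_left, hy3.1, hy3.2, smul_zero, add_zero]
  refine gen_fix B h h1 hQz hz hzs (m ha1 ha2 ha3) (m hb1 hb2 hb3) (hp.map g) (Or.inr ⟨g.1 y0, m (mem_perp_of q1).1
    (mem_perp_of q2).1 (mem_perp_of q3).1, ?_, ?_, g.1 y0', m (mem_perp_of q1).2 (mem_perp_of q2).2 (mem_perp_of q3).2, ?_⟩) hv
    (w := w) ⟨hw, polar_c Q hws, hzw⟩
  · rw [og_polar]; exact ha4.1
  · rw [og_polar]; exact hb4.1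
  · rw [og_polar, q1.h2.2.2]; exact one_ne_zero

end trv

end CfsgLib.Oy
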