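import Cfsg.Agent.LibOy18
import Cfsg.Agent.LibOw16

set_option autoImplicit false
set_option linter.unusedSectionVars false

/-! The alternatives over small fields, and numerics (helper26). -/

namespace CfsgLib.Oy

open Cfsg.Agent.H22 Module CfsgLib.Wt CfsgLib.WtQ CfsgLib.WtSp CfsgLib.SLw

section alt
variable {F V : Type*} [Field F] [Finite F] [AddCommGroup V] [Module F V] [FiniteDimensional F V] {Q : QuadraticForm F V}
  {E : Type*} [AddCommGroup E] [Module ℂ E] {ρ : Representation ℂ (EG Q) E} {ψ : AddChar F ℂ} [FiniteDimensional ℂ E]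

theorem wsum (B : Big Q) (hψ : ψ ≠ 1) {x x' : V} (h : HP Q x x') (a : F → ℕ)
    (H : ∀ s : perp2 Q x x', (s : V) ≠ 0 → a (Q (s : V)) ≤ finrank ℂ (wx ρ ψ h (s : V))) :
    ∑ s : perp2 Q x x', a (Q (s : V)) ≤ finrank ℂ E + a 0 := by
  classical
  rw [finrank_sum (ρ := ρ) B hψ h]
  have : ∑ s : perp2 Q x x', (if s = 0 then a 0 else 0) = a 0 := by
    rw [Finset.sum_ite_eq' Finset.univ (0 : perp2 Q x x') (fun _ => a 0), if_pos (Finset.mem_univ _)]
  rw [← this, ← Finset.sum_add_distrib]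
  apply Finset.sum_le_sum
  intro s _
  by_cases hs0 : s = 0
  · rw [if_pos hs0, hs0, Submodule.coe_zero, map_zero]
    exact Nat.le_add_left _ _
  · rw [if_neg hs0, add_zero]
    exact H s (fun hc => hs0 (Subtype.ext hc))

open Classical in
theorem nn_sum' (U : Submodule F V) (c : F) (k : ℕ) : ∑ r : U, (if Q (r : V) = c then k else 0) = k * nn Q U c := by
  rw [nn_sum, Finset.mul_sum]
  refine Finset.sum_congr rfl fun r _ => ?_
  split_ifs <;> simp

theorem alts (hirr : ρ.IsIrreducible) (h2 : 2 ≤ finrank ℂ E) (B : Big Q) (hψ : ψ ≠ 1) (S : Std Q) {x x' : V} (h : HP Q x x') :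
    One Q ρ ψ ∨ 2 * nn Q (perp2 Q x x') 0 ≤ finrank ℂ E + 2 ∨
      ∃ c : F, c ≠ 0 ∧ nn Q (perp2 Q x x') c ≤ finrank ℂ E ∧
        ((∀ (y y' : V) (h : HP Q y y') (r : V), r ∈ perp2 Q y y' → r ≠ 0 →
          (Q r = c → finrank ℂ (wx ρ ψ h r) = 1) ∧ (Q r ≠ c → wx ρ ψ h r = ⊥)) ∨
        nn Q (perp2 Q x x') c + nn Q (perp2 Q x x') 0 ≤ finrank ℂ E + 1 ∨ 2 * nn Q (perp2 Q x x') c ≤ finrank ℂ E ∨
        ∃ c' : F, c' ≠ 0 ∧ nn Q (perp2 Q x x') c + nn Q (perp2 Q x x') c' ≤ finrank ℂ E) := by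
  classical
  have hpos : ∀ {y y' s : V} (k : HP Q y y'), wx ρ ψ k s ≠ ⊥ → 1 ≤ finrank ℂ (wx ρ ψ k s) :=
    fun k hk => Submodule.one_le_finrank_iff.2 hk
  by_cases hns : ∃ (y y' : V) (k : HP Q y y') (r : V), r ∈ perp2 Q y y' ∧ Q r ≠ 0 ∧ wx ρ ψ k r ≠ ⊥
  · right; right
    obtain ⟨y, y', k, r, hr, hQr, hw⟩ := hns
    have hr0 : r ≠ 0 := by rintro rfl; exact hQr (map_zero Q)
    set c := Q r with hc
    have hall : ∀ (w w' : V) (l : HP Q w w') (s : V), s ∈ perp2 Q w w' → s ≠ 0 → Q s = c →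
        finrank ℂ (wx ρ ψ l s) = finrank ℂ (wx ρ ψ k r) :=
      fun w w' l s hs hs0 hQs => (wx_eq_of B k hr hr0 l hs hs0 (by rw [hQs])).symm
    have h1 := hpos k hw
    refine ⟨c, hQr, ?_, ?_⟩
    · have := wsum (ρ := ρ) B hψ h (fun t => if t = c then 1 else 0) (by
        intro s hs0
        by_cases e : Q (s : V) = c
        · simp only [e, if_true]
          rw [hall _ _ h s s.2 hs0 e]
          exact h1
        · simp only [e, if_false]
          exact Nat.zero_le _)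
      simp only [nn_sum', one_mul, if_neg hQr.symm, add_zero] at this
      exact this
    · by_cases hoth : ∃ (w w' : V) (l : HP Q w w') (s : V), s ∈ perp2 Q w w' ∧ s ≠ 0 ∧ Q s ≠ c ∧ wx ρ ψ l s ≠ ⊥
      · obtain ⟨w, w', l, s, hs, hs0, hQs, hws⟩ := hoth
        have h3 := hpos l hws
        have hall' : ∀ (w₁ w₂ : V) (l' : HP Q w₁ w₂) (s' : V), s' ∈ perp2 Q w₁ w₂ → s' ≠ 0 → Q s' = Q s →
            finrank ℂ (wx ρ ψ l' s') = finrank ℂ (wx ρ ψ l s) :=
          fun w₁ w₂ l' s' hs' hs0' hQs' => (wx_eq_of B l hs hs0 l' hs' hs0' (by rw [hQs'])).symm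
        have h4 := wsum (ρ := ρ) B hψ h (fun t => (if t = c then 1 else 0) + (if t = Q s then 1 else 0)) (by
          intro s' hs0'
          by_cases e : Q (s' : V) = c
          · have e2 : ¬ (c = Q s) := fun hcc => hQs hcc.symm
            simp only [e, e2, if_true, if_false, add_zero]
            rw [hall _ _ h s' s'.2 hs0' e]
            exact h1
          · by_cases e2 : Q (s' : V) = Q s
            · have e3 : ¬ (Q s = c) := hQs
              simp only [e2, e3, if_true, if_false, zero_add]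
              rw [hall' _ _ h s' s'.2 hs0' e2]
              exact h3
            · simp only [e, e2, if_false, add_zero]
              exact Nat.zero_le _)
        simp only [Finset.sum_add_distrib, nn_sum', one_mul, if_neg hQr.symm, zero_add] at h4
        by_cases e : Q s = 0
        · right; left
          rw [e, if_pos rfl] at h4
          exact h4
        · right; right; right
          rw [if_neg (fun hcc => e hcc.symm), add_zero] at h4
          exact ⟨Q s, e, h4⟩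
      · push Not at hoth
        by_cases hk : finrank ℂ (wx ρ ψ k r) = 1
        · left
          intro w w' l s hs hs0
          refine ⟨fun hQs => by rw [hall _ _ l s hs hs0 hQs, hk], fun hQs => hoth w w' l s hs hs0 hQs⟩
        · right; right; left
          have h3 : 2 ≤ finrank ℂ (wx ρ ψ k r) := by omega
          have := wsum (ρ := ρ) B hψ h (fun t => if t = c then 2 else 0) (by
            intro s hs0
            by_cases e : Q (s : V) = c
            · simp only [e, if_true]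
              rw [hall _ _ h s s.2 hs0 e]
              exact h3
            · simp only [e, if_false]
              exact Nat.zero_le _)
          simp only [nn_sum', if_neg hQr.symm, add_zero] at this
          exact this
  · push Not at hns
    obtain ⟨z, z', hop⟩ := B.ext_OP h
    have hz := (mem_perp_of hop).1
    have hz0 := hop.h2.ne
    have hconst : ∀ (y y' : V) (h : HP Q y y') (r : V), r ∈ perp2 Q y y' → r ≠ 0 → Q r = 0 →
        finrank ℂ (wx ρ ψ h r) = finrank ℂ (wx ρ ψ hop.h1 z) := by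
      intro y y' h r hr hr0 hQr
      exact (wx_eq_of B hop.h1 hz hz0 h hr hr0 (by rw [hop.h2.1, hQr])).symm
    rcases Nat.lt_trichotomy (finrank ℂ (wx ρ ψ hop.h1 z)) 1 with h1 | h1 | h1
    · exfalso
      apply all_bot_false hirr h2 B hψ
      intro y y' h r hr hr0
      by_cases hQr : Q r = 0
      · rw [← Submodule.finrank_eq_zero (R := ℂ), hconst y y' h r hr hr0 hQr]
        omega
      · exact hns y y' h r hr hQr
    · left
      refine ⟨?_, trvS B S⟩
      intro y y' h r hr hr0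
      exact ⟨fun hQr => by rw [hconst y y' h r hr hr0 hQr, h1], fun hQr => hns y y' h r hr hQr⟩
    · right; left
      have := wsum (ρ := ρ) B hψ h (fun t => if t = 0 then 2 else 0) (by
        intro s hs0
        by_cases e : Q (s : V) = 0
        · simp only [e, if_true]
          rw [hconst _ _ h s s.2 hs0 e]
          omega
        · simp only [e, if_false]
          exact Nat.zero_le _)
      simp only [nn_sum', if_true] at this
      exact this

end alt

/-! numerics -/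

theorem minus_num {q Y d k T : ℤ} (hq : 2 ≤ q) (hY : q ^ 2 ≤ Y) (hk : 0 ≤ k)
    (hm : d * ((q ^ 2 - 1) * ((q * Y ^ 2) * (q - 1 + k) + (q - 1) - q * k)) =
      ((q * Y + 1) * (Y - 1)) * ((q ^ 2 * Y + 1) * (q * Y - 1)) * (q - 1 + k))
    (hT : (q ^ 2 - 1) * T = q * ((q ^ 2 * Y + 1) * (Y - 1))) : T ≤ d := by
  by_contra hcon
  push Not at hcon
  obtain ⟨D, hD⟩ : ∃ D, D = T - d := ⟨_, rfl⟩
  have hD1 : 1 ≤ D := by omega
  have hd : d = T - D := by omega
  set Br := (q * Y ^ 2) * (q - 1 + k) + (q - 1) - q * k with hBr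
  have hq2 : 4 ≤ q ^ 2 := by nlinarith
  have hY4 : 4 ≤ Y := by linarith
  have hYq : q < Y := by nlinarith
  have hY2 : 1 < Y ^ 2 := by nlinarith
  have hBrpos : 0 < Br := by
    rw [hBr]
    have e : q * Y ^ 2 * (q - 1 + k) + (q - 1) - q * k = q * Y ^ 2 * (q - 1) + (q - 1) + q * k * (Y ^ 2 - 1) := by ring
    rw [e]
    have := mul_nonneg (mul_nonneg (by linarith : (0:ℤ) ≤ q) hk) (by linarith : (0:ℤ) ≤ Y ^ 2 - 1)
    have h2 := mul_pos (mul_pos (by linarith : (0:ℤ) < q) (by linarith : (0:ℤ) < Y ^ 2)) (by linarith : (0:ℤ) < q - 1)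
    linarith
  have key : (q ^ 2 * Y + 1) * (Y - 1) * (1 - k) = D * Br := by
    have h1 : q ^ 2 - 1 ≠ 0 := by linarith
    apply mul_left_cancel₀ h1
    rw [hd] at hm
    linear_combination hm - Br * hT - q * ((q ^ 2 * Y + 1) * (Y - 1)) * hBr
  have hR : 0 < D * Br := mul_pos (by linarith) hBrpos
  have hM : 0 < (q ^ 2 * Y + 1) * (Y - 1) := by
    apply mul_pos
    · nlinarith
    · linarith
  rcases (show k = 0 ∨ 1 ≤ k by omega) with h | h
  · subst h
    have hB0 : Br = (q - 1) * (q * Y ^ 2 + 1) := by rw [hBr]; ring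
    rw [hB0] at key
    have hp : 0 < (q - 1) * (q * Y ^ 2 + 1) := by
      apply mul_pos
      · linarith
      · nlinarith
    rcases (show D = 1 ∨ 2 ≤ D by omega) with h | h
    · rw [h] at key
      have e1 : (q ^ 2 * Y + 1) * (Y - 1) * (1 - 0) - 1 * ((q - 1) * (q * Y ^ 2 + 1)) = (q * Y + 1) * (Y - q) := by ring
      have e2 : 0 < (q * Y + 1) * (Y - q) := mul_pos (by nlinarith) (by linarith)
      linarith
    · have h3 : 2 * ((q - 1) * (q * Y ^ 2 + 1)) ≤ D * ((q - 1) * (q * Y ^ 2 + 1)) := mul_le_mul_of_nonneg_right h hp.le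
      have e1 : 2 * ((q - 1) * (q * Y ^ 2 + 1)) - (q ^ 2 * Y + 1) * (Y - 1) * (1 - 0) =
        q * (q - 2) * Y ^ 2 + (q ^ 2 - 1) * Y + (2 * q - 1) := by ring
      have e2 : 0 ≤ q * (q - 2) * Y ^ 2 := mul_nonneg (mul_nonneg (by linarith) (by linarith)) (by positivity)
      have e3 : 0 ≤ (q ^ 2 - 1) * Y := mul_nonneg (by linarith) (by linarith)
      linarith
  · have : (q ^ 2 * Y + 1) * (Y - 1) * (1 - k) ≤ 0 := mul_nonpos_of_nonneg_of_nonpos hM.le (by linarith)
    linarith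

theorem minus_b2 {q Y d T : ℤ} (hq : 2 ≤ q) (hY : q ^ 2 ≤ Y) (h : 2 * ((q * Y + 1) * (Y - 1)) ≤ d)
    (hT : (q ^ 2 - 1) * T = q * ((q ^ 2 * Y + 1) * (Y - 1))) : T ≤ d := by
  have hq4 : 4 ≤ q ^ 2 := by nlinarith
  have e1 : (q ^ 2 - 1) * T ≤ (q ^ 2 - 1) * d := by
    rw [hT]
    have h4 := mul_le_mul_of_nonneg_left h (by linarith : 0 ≤ q ^ 2 - 1)
    refine le_trans ?_ h4
    have e5 : (q ^ 2 - 1) * (2 * ((q * Y + 1) * (Y - 1))) - q * ((q ^ 2 * Y + 1) * (Y - 1)) =
      (Y - 1) * (q * Y * (q ^ 2 - 2) + (2 * q ^ 2 - q - 2)) := by ring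
    have e6 : 0 ≤ q * Y * (q ^ 2 - 2) := mul_nonneg (mul_nonneg (by linarith) (by linarith)) (by linarith)
    have e8 : 0 ≤ 2 * q ^ 2 - q - 2 := by nlinarith
    have e7 := mul_nonneg (by linarith : 0 ≤ Y - 1) (by linarith : 0 ≤ q * Y * (q ^ 2 - 2) + (2 * q ^ 2 - q - 2))
    linarith
  exact le_of_mul_le_mul_left e1 (by linarith)

theorem minus_b1 {q Y d T : ℤ} (hq : 2 ≤ q) (hY : q ^ 2 ≤ Y) (h : 2 * (q ^ 2 - 1) * (q * Y ^ 2) ≤ q ^ 2 * d)
    (hT : (q ^ 2 - 1) * T = q * ((q ^ 2 * Y + 1) * (Y - 1))) : T ≤ d := by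
  have hq4 : 4 ≤ q ^ 2 := by nlinarith
  have hqp : 0 < q := by linarith
  have e1' : 2 * (q ^ 2 - 1) * Y ^ 2 ≤ q * d := by
    apply le_of_mul_le_mul_left _ hqp
    calc q * (2 * (q ^ 2 - 1) * Y ^ 2) = 2 * (q ^ 2 - 1) * (q * Y ^ 2) := by ring
      _ ≤ q ^ 2 * d := h
      _ = _ := by ring
  have e2 : (q * (q ^ 2 - 1)) * T ≤ (q * (q ^ 2 - 1)) * d := by
    rw [mul_assoc, hT]
    have h3 := mul_le_mul_of_nonneg_left e1' (by linarith : 0 ≤ q ^ 2 - 1)
    have e3 : (q ^ 2 - 1) * (q * d) = (q * (q ^ 2 - 1)) * d := by ring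
    rw [e3] at h3
    refine le_trans ?_ h3
    have e4 : q * (q * ((q ^ 2 * Y + 1) * (Y - 1))) = q ^ 2 * (q ^ 2 * Y ^ 2 - (q ^ 2 - 1) * Y - 1) := by ring
    rw [e4]
    generalize q ^ 2 = t at *
    have hYY : 0 ≤ Y ^ 2 := by positivity
    have e5 : t * (t * Y ^ 2 - (t - 1) * Y - 1) ≤ t * (t * Y ^ 2) := by
      apply mul_le_mul_of_nonneg_left _ (by linarith)
      have : 0 ≤ (t - 1) * Y := mul_nonneg (by linarith) (by linarith)
      linarith
    refine le_trans e5 ?_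
    have e6 : (t - 1) * (2 * (t - 1) * Y ^ 2) - t * (t * Y ^ 2) = (t ^ 2 - 4 * t + 2) * Y ^ 2 := by ring
    have e7 : 0 ≤ t ^ 2 - 4 * t + 2 := by nlinarith
    have e8 := mul_nonneg e7 hYY
    linarith
  exact le_of_mul_le_mul_left e2 (mul_pos (by linarith) (by linarith))

/-- nonsingular weights -/
theorem minus_c {q Y d T : ℤ} (hq : 2 ≤ q) (hY : q ^ 2 ≤ Y)
    (hm : d * (((q ^ 2 * Y + 1) * (q * Y - 1)) * (Y * (q * Y + 1)) * q - ((Y + 1) * (Y - q)) * (Y * (q * Y + 1)) -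
      (q + 1) * (q * ((q * Y + 1) * (Y - 1)) * (Y * (Y + 1)) - ((Y + 1) * (Y - q)) * (Y * (q * Y + 1)))) =
      q * (((q ^ 2 * Y + 1) * (q * Y - 1)) * (Y * (q * Y + 1)) ^ 2))
    (hT : (q ^ 2 - 1) * T = q * ((q ^ 2 * Y + 1) * (Y - 1))) : T ≤ d := by
  have hq4 : 4 ≤ q ^ 2 := by nlinarith
  have hY4 : 4 ≤ Y := by linarith
  have hne : q * ((q * Y - 1) * Y * (Y * (q * Y + 1))) ≠ 0 := by
    have h1 : 0 < q * Y - 1 := by nlinarith
    have h2 : 0 < q * Y + 1 := by nlinarith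
    have h3 : 0 < Y := by linarith
    have h4 : 0 < q := by linarith
    positivity
  have key : d * (q ^ 2 - 1) = (q ^ 2 * Y + 1) * (q * Y + 1) := by
    apply mul_left_cancel₀ hne
    linear_combination hm
  have e1 : (q ^ 2 - 1) * T ≤ (q ^ 2 - 1) * d := by
    rw [hT, mul_comm (q ^ 2 - 1) d, key]
    have : (q ^ 2 * Y + 1) * (q * Y + 1) - q * ((q ^ 2 * Y + 1) * (Y - 1)) = (q ^ 2 * Y + 1) * (1 + q) := by ring
    have h2 : 0 ≤ (q ^ 2 * Y + 1) * (1 + q) := mul_nonneg (by nlinarith) (by linarith)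
    linarith
  exact le_of_mul_le_mul_left e1 (by linarith)

end CfsgLib.Oy
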