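import Cfsg.Agent.LibOy19

set_option autoImplicit false
set_option linter.unusedSectionVars false

/-! The bound for the minus type (helper26). -/

namespace CfsgLib.Oy

open Cfsg.Agent.H22 Module

section bound
variable {F V : Type*} [Field F] [Finite F] [AddCommGroup V] [Module F V] [FiniteDimensional F V] {Q : QuadraticForm F V}
  {E : Type*} [AddCommGroup E] [Module ℂ E] {ρ : Representation ℂ (EG Q) E} [FiniteDimensional ℂ E]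

theorem masterZ [ρ.IsIrreducible] (B : Big Q) {ψ : AddChar F ℂ} (hψ : ψ ≠ 1) (h1 : One Q ρ ψ) {A n : ℕ} (N : Num Q A n) :
    ∃ k : ℕ, (finrank ℂ E : ℤ) * (((Nat.card F : ℤ) ^ 2 - 1) * ((Nat.card F : ℤ) ^ 3 * A * (Nat.card F - 1 + k) + (Nat.card F - 1) -
      Nat.card F * k)) = ((Nat.card F : ℤ) * n + (Nat.card F - 1) * ((Nat.card F : ℤ) ^ 2 * A) - 1) *
        ((Nat.card F : ℤ) ^ 2 * n + ((Nat.card F : ℤ) ^ 2 - 1) * ((Nat.card F : ℤ) ^ 3 * A) - 1) * (Nat.card F - 1 + k) := by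
  obtain ⟨k, hk⟩ := master B hψ h1 N
  exact ⟨k, by exact_mod_cast hk⟩

theorem masterCZ [ρ.IsIrreducible] (B : Big Q) {ψ : AddChar F ℂ} (hψ : ψ ≠ 1) {c : F} (h1 : OneC Q ρ ψ c) (hc : c ≠ 0) {A n m : ℕ}
    (N : NumC Q A n c) (N0 : Num Q A m) :
    (finrank ℂ E : ℤ) * (((Nat.card F : ℤ) ^ 2 * m + ((Nat.card F : ℤ) ^ 2 - 1) * ((Nat.card F : ℤ) ^ 3 * A) - 1) *
        ((Nat.card F : ℤ) * n + (Nat.card F - 1) * ((Nat.card F : ℤ) ^ 2 * A)) -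
      (m - 1) * ((Nat.card F : ℤ) * n + (Nat.card F - 1) * ((Nat.card F : ℤ) ^ 2 * A)) -
      (Nat.card F + 1) * (Nat.card F * ((Nat.card F : ℤ) * m + (Nat.card F - 1) * ((Nat.card F : ℤ) ^ 2 * A) - 1) * n -
        (m - 1) * ((Nat.card F : ℤ) * n + (Nat.card F - 1) * ((Nat.card F : ℤ) ^ 2 * A)))) =
    ((Nat.card F : ℤ) ^ 2 * m + ((Nat.card F : ℤ) ^ 2 - 1) * ((Nat.card F : ℤ) ^ 3 * A) - 1) *
      ((Nat.card F : ℤ) * n + (Nat.card F - 1) * ((Nat.card F : ℤ) ^ 2 * A)) ^ 2 := by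
  have := masterC B hψ h1 hc N N0
  exact_mod_cast this

/-- the case of nonsingular weights -/
theorem caseC {q Y d T A n m : ℤ} (hq : 2 ≤ q) (hY : q ^ 2 ≤ Y)
    (hT : (q ^ 2 - 1) * T = q * ((q ^ 2 * Y + 1) * (Y - 1)))
    (hM : d * ((q ^ 2 * m + (q ^ 2 - 1) * (q ^ 3 * A) - 1) * (q * n + (q - 1) * (q ^ 2 * A)) -
      (m - 1) * (q * n + (q - 1) * (q ^ 2 * A)) -
      (q + 1) * (q * (q * m + (q - 1) * (q ^ 2 * A) - 1) * n - (m - 1) * (q * n + (q - 1) * (q ^ 2 * A)))) =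
      (q ^ 2 * m + (q ^ 2 - 1) * (q ^ 3 * A) - 1) * (q * n + (q - 1) * (q ^ 2 * A)) ^ 2)
    (hA1 : q ^ 3 * A = q * Y ^ 2) (hs1 : q * m + (q - 1) * (q ^ 2 * A) = (q * Y + 1) * (Y - 1) + 1)
    (hs2 : q ^ 2 * m + (q ^ 2 - 1) * (q * Y ^ 2) = (q ^ 2 * Y + 1) * (q * Y - 1) + 1)
    (hsc : q * n + (q - 1) * (q ^ 2 * A) = Y * (q * Y + 1))
    (hm1 : q * (m - 1) = (Y + 1) * (Y - q)) (hm2 : q * n = Y * (Y + 1)) : T ≤ d := by
  rw [hs1, hA1, hs2, hsc] at hM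
  refine minus_c hq hY ?_ hT
  linear_combination q * hM + d * (Y * (q * Y + 1)) * (1 - (q + 1)) * hm1 +
            d * (q + 1) * q * ((q * Y + 1) * (Y - 1)) * hm2

theorem dim8 {q Y d T : ℤ} (hq : 2 ≤ q) (hY : Y = q ^ 2) (h : Y * (q * Y + 1) ≤ d)
    (hT : (q ^ 2 - 1) * T = q * ((q ^ 2 * Y + 1) * (Y - 1))) : T ≤ d := by
  have hq4 : 4 ≤ q ^ 2 := by nlinarith
  rw [hY] at h hT
  have e1 : (q ^ 2 - 1) * T ≤ (q ^ 2 - 1) * d := by
    have h3 := mul_le_mul_of_nonneg_left h (by linarith : 0 ≤ q ^ 2 - 1)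
    refine le_trans ?_ h3
    rw [hT]
    have e2 : (q ^ 2 - 1) * (q ^ 2 * (q * q ^ 2 + 1)) - q * ((q ^ 2 * q ^ 2 + 1) * (q ^ 2 - 1)) =
      (q ^ 2 - 1) * (q * (q - 1)) := by ring
    have e3 : 0 ≤ (q ^ 2 - 1) * (q * (q - 1)) :=
      mul_nonneg (by linarith) (mul_nonneg (by linarith) (by linarith))
    linarith
  exact le_of_mul_le_mul_left e1 (by linarith)

/-- large fields -/
theorem bound_minus_big (B : CfsgLib.Ow.Big Q) (hirr : ρ.IsIrreducible) (h2 : 2 ≤ finrank ℂ E) {m : ℕ} (hm : 4 ≤ m)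
    (hV : Nat.card V = Nat.card F ^ (2 * m))
    (hn : CfsgLib.Ow.nn Q ⊤ 0 = (Nat.card F ^ m + 1) * (Nat.card F ^ (m - 1) - 1) + 1) {T : ℕ}
    (hT : (Nat.card F ^ 2 - 1) * T = (Nat.card F ^ m + 1) * (Nat.card F ^ (m - 1) - Nat.card F)) : T ≤ finrank ℂ E := by
  obtain ⟨ψ, hψ⟩ := CfsgLib.WtSp.exists_psi F
  obtain ⟨l, rfl⟩ := Nat.exists_eq_add_of_le hm
  have hq : 2 ≤ Nat.card F := CfsgLib.Ow.two_le_q F
  set q := Nat.card F with hqdef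
  have hq0 : 0 < q := by omega
  have hsub : 4 + l - 1 = l + 3 := by omega
  rw [hsub] at hn hT
  have h2pos : 1 ≤ q ^ 2 := Nat.one_le_pow _ _ hq0
  have hY1 : 1 ≤ q ^ (l + 1) := Nat.one_le_pow _ _ hq0
  have hY3 : 1 ≤ q ^ (l + 3) := Nat.one_le_pow _ _ hq0
  have hY3' : q ≤ q ^ (l + 3) := by
    calc q = q ^ 1 := (pow_one q).symm
      _ ≤ q ^ (l + 3) := Nat.pow_le_pow_right hq0 (by omega)
  have hN : CfsgLib.Ow.Num Q (q ^ (2 * l + 2)) ((q ^ (l + 2) + 1) * (q ^ (l + 1) - 1) + 1) := by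
    refine ⟨?_, ?_⟩
    · rw [hV, ← hqdef, ← pow_add]
      congr 1
      ring
    · rw [hn, ← hqdef]
      zify [h2pos, hY1, hY3]
      push_cast [h2pos, hY1, hY3]
      ring
  have hqz : (2 : ℤ) ≤ q := by exact_mod_cast hq
  obtain ⟨Y, hY⟩ : ∃ Y : ℤ, Y = (q : ℤ) ^ (l + 2) := ⟨_, rfl⟩
  have hYq : (q : ℤ) ^ 2 ≤ Y := by
    rw [hY]
    exact pow_le_pow_right₀ (by linarith) (by omega)
  have hTz : ((q : ℤ) ^ 2 - 1) * T = q * (((q : ℤ) ^ 2 * Y + 1) * (Y - 1)) := by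
    have := hT
    zify [h2pos, hY3'] at this
    rw [this, hY]
    ring
  have hA1 : (q : ℤ) ^ 3 * ((q ^ (2 * l + 2) : ℕ) : ℤ) = q * Y ^ 2 := by
    rw [hY]; push_cast; ring
  have hs1 : (q : ℤ) * (((q ^ (l + 2) + 1) * (q ^ (l + 1) - 1) + 1 : ℕ) : ℤ) + (q - 1) * ((q : ℤ) ^ 2 * ((q ^ (2 * l + 2) : ℕ) : ℤ)) =
      (q * Y + 1) * (Y - 1) + 1 := by
    rw [hY]; push_cast [hY1]; ring
  have hs2 : (q : ℤ) ^ 2 * (((q ^ (l + 2) + 1) * (q ^ (l + 1) - 1) + 1 : ℕ) : ℤ) + ((q : ℤ) ^ 2 - 1) * (q * Y ^ 2) =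
      (q ^ 2 * Y + 1) * (q * Y - 1) + 1 := by
    rw [hY]; push_cast [hY1]; ring
  rcases CfsgLib.Ow.one_or hirr h2 B hψ hN with h1 | h1 | h1
  · obtain ⟨k, hk⟩ := CfsgLib.Ow.masterZ (ρ := ρ) B hψ h1 hN
    have : (T : ℤ) ≤ (finrank ℂ E : ℤ) := by
      refine minus_num hqz hYq (Nat.cast_nonneg k) ?_ hTz
      rw [← hqdef, hs1, hA1, hs2] at hk
      rw [hk]
      ring
    exact_mod_cast this
  · rw [← hqdef] at h1
    have h1z : 2 * ((q : ℤ) * (((q : ℤ) ^ 2 - 1) * ((q ^ (2 * l + 2) : ℕ) : ℤ))) ≤ (finrank ℂ E : ℤ) := by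
      have := h1
      zify [h2pos] at this
      push_cast at this ⊢
      exact this
    have : (T : ℤ) ≤ (finrank ℂ E : ℤ) := by
      refine minus_b1 hqz hYq ?_ hTz
      have := mul_le_mul_of_nonneg_left h1z (by positivity : (0 : ℤ) ≤ (q : ℤ) ^ 2)
      have e : (q : ℤ) ^ 2 * (2 * ((q : ℤ) * (((q : ℤ) ^ 2 - 1) * ((q ^ (2 * l + 2) : ℕ) : ℤ)))) = 2 * ((q : ℤ) ^ 2 - 1) * (q * Y ^ 2) := by
        rw [← hA1]; ring
      rw [e] at this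
      exact this
    exact_mod_cast this
  · have : (T : ℤ) ≤ (finrank ℂ E : ℤ) := by
      refine minus_b2 hqz hYq ?_ hTz
      have h3 : 2 * ((q * Y + 1) * (Y - 1) + 1) ≤ (finrank ℂ E : ℤ) + 2 := by
        rw [← hs1]
        have := h1
        rw [← hqdef] at this
        zify [hq0] at this
        push_cast at this ⊢
        exact this
      linarith
    exact_mod_cast this

/-- small fields -/
theorem bound_minus_small (B : Big Q) (S : Std Q) (hirr : ρ.IsIrreducible) (h2 : 2 ≤ finrank ℂ E) {m : ℕ} (hm : 4 ≤ m)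
    (S4 : 5 ≤ m → Std4 Q) (hV : Nat.card V = Nat.card F ^ (2 * m))
    (hn : nn Q ⊤ 0 = (Nat.card F ^ m + 1) * (Nat.card F ^ (m - 1) - 1) + 1)
    (hnc : ∀ c : F, c ≠ 0 → nn Q ⊤ c = Nat.card F ^ (2 * m - 1) + Nat.card F ^ (m - 1)) {T : ℕ}
    (hT : (Nat.card F ^ 2 - 1) * T = (Nat.card F ^ m + 1) * (Nat.card F ^ (m - 1) - Nat.card F)) : T ≤ finrank ℂ E := by
  obtain ⟨ψ, hψ⟩ := CfsgLib.WtSp.exists_psi F
  obtain ⟨l, rfl⟩ := Nat.exists_eq_add_of_le hm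
  have hq : 2 ≤ Nat.card F := two_le_q F
  set q := Nat.card F with hqdef
  have hq0 : 0 < q := by omega
  have hsub : 4 + l - 1 = l + 3 := by omega
  have hsub2 : 2 * (4 + l) - 1 = 2 * l + 7 := by omega
  rw [hsub] at hn hT
  have h2pos : 1 ≤ q ^ 2 := Nat.one_le_pow _ _ hq0
  have hY1 : 1 ≤ q ^ (l + 1) := Nat.one_le_pow _ _ hq0
  have hY3 : 1 ≤ q ^ (l + 3) := Nat.one_le_pow _ _ hq0
  have hY3' : q ≤ q ^ (l + 3) := by
    calc q = q ^ 1 := (pow_one q).symm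
      _ ≤ q ^ (l + 3) := Nat.pow_le_pow_right hq0 (by omega)
  have hN : Num Q (q ^ (2 * l + 2)) ((q ^ (l + 2) + 1) * (q ^ (l + 1) - 1) + 1) := by
    refine ⟨?_, ?_⟩
    · rw [hV, ← hqdef, ← pow_add]
      congr 1
      ring
    · rw [hn, ← hqdef]
      zify [h2pos, hY1, hY3]
      push_cast [h2pos, hY1, hY3]
      ring
  have hNC : ∀ c : F, c ≠ 0 → NumC Q (q ^ (2 * l + 2)) (q ^ (l + 1) * (q ^ (l + 2) + 1)) c := by
    intro c hc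
    refine ⟨?_, ?_⟩
    · rw [hV, ← hqdef, ← pow_add]
      congr 1
      ring
    · rw [hnc c hc, ← hqdef, hsub, hsub2]
      zify [h2pos]
      push_cast [h2pos]
      ring
  have hqz : (2 : ℤ) ≤ q := by exact_mod_cast hq
  obtain ⟨Y, hY⟩ : ∃ Y : ℤ, Y = (q : ℤ) ^ (l + 2) := ⟨_, rfl⟩
  have hYq : (q : ℤ) ^ 2 ≤ Y := by
    rw [hY]
    exact pow_le_pow_right₀ (by linarith) (by omega)
  have hTz : ((q : ℤ) ^ 2 - 1) * T = q * (((q : ℤ) ^ 2 * Y + 1) * (Y - 1)) := by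
    have := hT
    zify [h2pos, hY3'] at this
    rw [this, hY]
    ring
  have hA1 : (q : ℤ) ^ 3 * ((q ^ (2 * l + 2) : ℕ) : ℤ) = q * Y ^ 2 := by
    rw [hY]; push_cast; ring
  have hs1 : (q : ℤ) * (((q ^ (l + 2) + 1) * (q ^ (l + 1) - 1) + 1 : ℕ) : ℤ) + (q - 1) * ((q : ℤ) ^ 2 * ((q ^ (2 * l + 2) : ℕ) : ℤ)) =
      (q * Y + 1) * (Y - 1) + 1 := by
    rw [hY]; push_cast [hY1]; ring
  have hs2 : (q : ℤ) ^ 2 * (((q ^ (l + 2) + 1) * (q ^ (l + 1) - 1) + 1 : ℕ) : ℤ) + ((q : ℤ) ^ 2 - 1) * (q * Y ^ 2) =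
      (q ^ 2 * Y + 1) * (q * Y - 1) + 1 := by
    rw [hY]; push_cast [hY1]; ring
  have hsc : (q : ℤ) * ((q ^ (l + 1) * (q ^ (l + 2) + 1) : ℕ) : ℤ) + (q - 1) * ((q : ℤ) ^ 2 * ((q ^ (2 * l + 2) : ℕ) : ℤ)) =
      Y * (q * Y + 1) := by
    rw [hY]; push_cast; ring
  have hY4 : 4 ≤ Y := by nlinarith
  obtain ⟨x, x', z, z', t, t', u, hop, -⟩ := B.fr
  have w0 : ((nn Q (perp2 Q x x') 0 : ℕ) : ℤ) = (q * Y + 1) * (Y - 1) + 1 := by
    rw [hN.nW hop.h1, ← hs1, ← hqdef]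
    push_cast [hq0]
    ring
  have wc : ∀ c : F, c ≠ 0 → ((nn Q (perp2 Q x x') c : ℕ) : ℤ) = Y * (q * Y + 1) := by
    intro c hc
    rw [(hNC c hc).nW hop.h1, ← hsc, ← hqdef]
    push_cast [hq0]
    ring
  have hpos : 0 ≤ (q * Y + 1) := by nlinarith
  rcases alts hirr h2 B hψ S hop.h1 with h1 | h1 | ⟨c, hc, h0, h1⟩
  · obtain ⟨k, hk⟩ := masterZ (ρ := ρ) B hψ h1 hN
    have : (T : ℤ) ≤ (finrank ℂ E : ℤ) := by
      refine minus_num hqz hYq (Nat.cast_nonneg k) ?_ hTz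
      rw [← hqdef, hs1, hA1, hs2] at hk
      rw [hk]
      ring
    exact_mod_cast this
  · have h1z : 2 * ((nn Q (perp2 Q x x') 0 : ℕ) : ℤ) ≤ (finrank ℂ E : ℤ) + 2 := by exact_mod_cast h1
    rw [w0] at h1z
    have : (T : ℤ) ≤ (finrank ℂ E : ℤ) := minus_b2 hqz hYq (by linarith) hTz
    exact_mod_cast this
  · have hkey : 2 * (q * Y + 1) * (Y - 1) ≤ (finrank ℂ E : ℤ) → T ≤ finrank ℂ E := by
      intro h
      have : (T : ℤ) ≤ (finrank ℂ E : ℤ) := minus_b2 hqz hYq (by linarith) hTz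
      exact_mod_cast this
    rcases h1 with h1 | h1 | h1 | ⟨c', hc', h1⟩
    · rcases Nat.lt_or_ge 0 l with hl | hl
      · have hone : OneC Q ρ ψ c := ⟨h1, trvC B (S4 (by omega)) hc⟩
        have hM := masterCZ (ρ := ρ) B hψ hone hc (hNC c hc) hN
        have hm1 : (q : ℤ) * ((((q ^ (l + 2) + 1) * (q ^ (l + 1) - 1) + 1 : ℕ) : ℤ) - 1) = (Y + 1) * (Y - q) := by
          rw [hY]; push_cast [hY1]; ring
        have hm2 : (q : ℤ) * ((q ^ (l + 1) * (q ^ (l + 2) + 1) : ℕ) : ℤ) = Y * (Y + 1) := by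
          rw [hY]; push_cast; ring
        rw [← hqdef] at hM
        have : (T : ℤ) ≤ (finrank ℂ E : ℤ) := caseC hqz hYq hTz hM hA1 hs1 hs2 hsc hm1 hm2
        exact_mod_cast this
      · -- dimension eight
        have hl0 : l = 0 := by omega
        subst hl0
        have h0z : Y * (q * Y + 1) ≤ (finrank ℂ E : ℤ) := by
          rw [← wc c hc]
          exact_mod_cast h0
        have hYe : Y = (q : ℤ) ^ 2 := by rw [hY]
        have : (T : ℤ) ≤ (finrank ℂ E : ℤ) := dim8 hqz hYe h0z hTz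
        exact_mod_cast this
    · apply hkey
      have h1z : ((nn Q (perp2 Q x x') c : ℕ) : ℤ) + ((nn Q (perp2 Q x x') 0 : ℕ) : ℤ) ≤ (finrank ℂ E : ℤ) + 1 := by exact_mod_cast h1
      rw [w0, wc c hc] at h1z
      linarith
    · apply hkey
      have h1z : 2 * ((nn Q (perp2 Q x x') c : ℕ) : ℤ) ≤ (finrank ℂ E : ℤ) := by exact_mod_cast h1
      rw [wc c hc] at h1z
      linarith
    · apply hkey
      have h1z : ((nn Q (perp2 Q x x') c : ℕ) : ℤ) + ((nn Q (perp2 Q x x') c' : ℕ) : ℤ) ≤ (finrank ℂ E : ℤ) := by exact_mod_cast h1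
      rw [wc c hc, wc c' hc'] at h1z
      linarith

end bound

end CfsgLib.Oy
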