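import Cfsg.Agent.LibOy20

set_option autoImplicit false
set_option linter.unusedSectionVars false

/-! The minus form (helper26). -/

namespace CfsgLib.Oy

open Cfsg.Agent.H22 Module

section
variable {F : Type*} [Field F]

theorem op_qMinus {m : ℕ} (a b : F) {i j : Fin m} (hij : i ≠ j) : OP (qMinus m F a b) (Pi.single (.inl (.inl i)) 1)
    (Pi.single (.inl (.inr i)) 1) (Pi.single (.inl (.inl j)) 1) (Pi.single (.inl (.inr j)) 1) where
  h1 := by
    refine ⟨?_, ?_, ?_⟩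
    · rw [coe_qMinus]; unfold Cfsg.quadFormMinus; simp [Pi.single_apply]
    · rw [coe_qMinus]; unfold Cfsg.quadFormMinus; simp [Pi.single_apply]
    · rw [polar_qMinus]; simp [Pi.single_apply]
  h2 := by
    refine ⟨?_, ?_, ?_⟩
    · rw [coe_qMinus]; unfold Cfsg.quadFormMinus; simp [Pi.single_apply]
    · rw [coe_qMinus]; unfold Cfsg.quadFormMinus; simp [Pi.single_apply]
    · rw [polar_qMinus]; simp [Pi.single_apply]
  xz := by rw [polar_qMinus]; simp [Pi.single_apply]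
  xz' := by rw [polar_qMinus]; simp [Pi.single_apply, hij, hij.symm]
  x'z := by rw [polar_qMinus]; simp [Pi.single_apply, hij, hij.symm]
  x'z' := by rw [polar_qMinus]; simp [Pi.single_apply]

theorem toOw {V : Type*} [AddCommGroup V] [Module F V] {Q : QuadraticForm F V} {x x' z z' : V} (h : OP Q x x' z z') :
    CfsgLib.Ow.OP Q x x' z z' := ⟨h.h1, h.h2, h.xz, h.xz', h.x'z, h.x'z'⟩

theorem hs_of_op {V : Type*} [AddCommGroup V] [Module F V] {Q : QuadraticForm F V} {x x' z z' u : V} (h : OP Q x x' z z')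
    (h1 : QuadraticMap.polar Q u x = 0) (h2 : QuadraticMap.polar Q u x' = 0) (h3 : QuadraticMap.polar Q u z = 0)
    (h4 : QuadraticMap.polar Q u z' = 0) (hu : Q u ≠ 0) : HS Q x x' z z' u :=
  ⟨h.h1, h.h2, h.xz, h.xz', h.x'z, h.x'z', h1, h2, h3, h4, hu⟩

theorem polar_minus0 {m : ℕ} (a b : F) (k : Fin m ⊕ Fin m) (j : Fin 2) :
    QuadraticMap.polar (qMinus m F a b) (Pi.single (.inr j) 1) (Pi.single (.inl k) 1) = 0 := by
  rw [polar_qMinus]
  fin_cases j <;> rcases k with k | k <;> simp [Pi.single_apply]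

theorem big_fr {m : ℕ} (hm : 3 ≤ m) (a b : F) : ∃ x x' z z' t t' u, OP (qMinus m F a b) x x' z z' ∧ OP (qMinus m F a b) t t' x x' ∧
    OP (qMinus m F a b) t t' z z' ∧ HS (qMinus m F a b) t t' x x' u ∧ HS (qMinus m F a b) x x' z z' u := by
  have h01 : (⟨0, by omega⟩ : Fin m) ≠ ⟨1, by omega⟩ := by simp
  have h20 : (⟨2, by omega⟩ : Fin m) ≠ ⟨0, by omega⟩ := by simp
  have h21 : (⟨2, by omega⟩ : Fin m) ≠ ⟨1, by omega⟩ := by simp
  have hQu : qMinus m F a b (Pi.single (.inr 0) 1) ≠ 0 := by rw [coe_qMinus]; unfold Cfsg.quadFormMinus; simp [Pi.single_apply]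
  have hu := fun k => polar_minus0 (m := m) a b k 0
  exact ⟨_, _, _, _, _, _, Pi.single (.inr 0) 1, op_qMinus a b h01, op_qMinus a b h20, op_qMinus a b h21,
    hs_of_op (op_qMinus a b h20) (hu _) (hu _) (hu _) (hu _) hQu, hs_of_op (op_qMinus a b h01) (hu _) (hu _) (hu _) (hu _) hQu⟩

theorem big_qMinus_Ow [Fintype F] {m : ℕ} (hm : 3 ≤ m) (a b : F) (hab : ∀ z₁ z₂ : F, z₁ ^ 2 + a * z₁ * z₂ + b * z₂ ^ 2 = 0 → z₁ = 0 ∧ z₂ = 0)
    (hF : ∃ c : F, c ≠ 0 ∧ c ^ 2 ≠ 1) : CfsgLib.Ow.Big (qMinus m F a b) := by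
  obtain ⟨x, x', z, z', t, t', u, h1, h2, h3, h4, h5⟩ := big_fr hm a b
  exact ⟨nondeg_qMinus m a b hab, hF, x, x', z, z', t, t', u, toOw h1, toOw h2, toOw h3, h4, h5⟩

theorem big_qMinus [Fintype F] {m : ℕ} (hm : 3 ≤ m) (a b : F) (hab : ∀ z₁ z₂ : F, z₁ ^ 2 + a * z₁ * z₂ + b * z₂ ^ 2 = 0 → z₁ = 0 ∧ z₂ = 0) :
    Big (qMinus m F a b) := by
  obtain ⟨x, x', z, z', t, t', u, h1, h2, h3, h4, h5⟩ := big_fr hm a b
  refine ⟨nondeg_qMinus m a b hab, Or.inr ?_, x, x', z, z', t, t', u, h1, h2, h3, h4, h5⟩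
  rw [Module.finrank_fintype_fun_eq_card]
  simp only [Fintype.card_sum, Fintype.card_fin]
  omega

theorem exists_pl [Fintype F] {m : ℕ} (a b : F) (hab : ∀ z₁ z₂ : F, z₁ ^ 2 + a * z₁ * z₂ + b * z₂ ^ 2 = 0 → z₁ = 0 ∧ z₂ = 0)
    (hF : Nat.card F = 2 ∨ Nat.card F = 3) : ∃ r s : F, Pl (qMinus m F a b) (Pi.single (.inr 0) 1)
      (r • Pi.single (.inr 0) 1 + s • Pi.single (.inr 1) 1) := by
  have hQ0 : qMinus m F a b (Pi.single (.inr 0) 1) = 1 := by rw [coe_qMinus]; unfold Cfsg.quadFormMinus; simp [Pi.single_apply]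
  have hQ : ∀ r s : F, qMinus m F a b (r • Pi.single (.inr 0) 1 + s • Pi.single (.inr 1) 1) = r ^ 2 + a * r * s + b * s ^ 2 := by
    intro r s
    rw [coe_qMinus]; unfold Cfsg.quadFormMinus; simp [Pi.single_apply]
  have hp : ∀ r s : F, QuadraticMap.polar (qMinus m F a b) (Pi.single (.inr 0) 1) (r • Pi.single (.inr 0) 1 + s • Pi.single (.inr 1) 1) =
      2 * r + a * s := by
    intro r s
    rw [polar_qMinus]; simp [Pi.single_apply]
  rcases hF with hF | hF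
  · have h2 := c2 hF
    have hb : b = 1 := by
      refine (pm2 hF b).resolve_left ?_
      rintro rfl
      have := (hab 0 1 (by ring)).2
      exact one_ne_zero this
    have ha : a = 1 := by
      refine (pm2 hF a).resolve_left ?_
      rintro rfl
      have := (hab 1 1 (by rw [hb]; linear_combination h2)).2
      exact one_ne_zero this
    refine ⟨0, 1, Or.inr ⟨hF, hQ0, ?_, ?_⟩⟩
    · rw [hQ, hb]; ring
    · rw [hp, ha]; ring
  · have h3 := c3 hF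
    refine ⟨a, 1, Or.inl ⟨hF, ?_, ?_, ?_⟩⟩
    · rw [hQ0]; exact one_ne_zero
    · rw [hQ, hQ0]
      rcases pm3 hF (a ^ 2 + a * a * 1 + b * 1 ^ 2) with h | h | h
      · exact absurd (hab a 1 h).2 one_ne_zero
      · exact h
      · exfalso
        have e : (1 + a) ^ 2 + a * (1 + a) * 1 + b * 1 ^ 2 = 0 := by
          linear_combination h + a * h3
        exact one_ne_zero (hab (1 + a) 1 e).2
    · rw [hp]
      linear_combination a * h3

theorem mem_perp_minus {m : ℕ} (a b : F) (i : Fin m) (r s : F) : r • Pi.single (.inr 0) 1 + s • Pi.single (.inr 1) 1 ∈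
    perp2 (qMinus m F a b) (Pi.single (.inl (.inl i)) 1) (Pi.single (.inl (.inr i)) 1) := by
  constructor
  · rw [QuadraticMap.polar_add_right, QuadraticMap.polar_smul_right, QuadraticMap.polar_smul_right, QuadraticMap.polar_comm,
      polar_minus0, QuadraticMap.polar_comm, polar_minus0, smul_zero, smul_zero, add_zero]
  · rw [QuadraticMap.polar_add_right, QuadraticMap.polar_smul_right, QuadraticMap.polar_smul_right, QuadraticMap.polar_comm,
      polar_minus0, QuadraticMap.polar_comm, polar_minus0, smul_zero, smul_zero, add_zero]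

theorem std_qMinus [Fintype F] {m : ℕ} (hm : 3 ≤ m) (a b : F) (hab : ∀ z₁ z₂ : F, z₁ ^ 2 + a * z₁ * z₂ + b * z₂ ^ 2 = 0 → z₁ = 0 ∧ z₂ = 0)
    (hF : Nat.card F = 2 ∨ Nat.card F = 3) : Std (qMinus m F a b) := by
  have h01 : (⟨0, by omega⟩ : Fin m) ≠ ⟨1, by omega⟩ := by simp
  have h02 : (⟨0, by omega⟩ : Fin m) ≠ ⟨2, by omega⟩ := by simp
  have h12 : (⟨1, by omega⟩ : Fin m) ≠ ⟨2, by omega⟩ := by simp
  obtain ⟨r, s, hpl⟩ := exists_pl (m := m) a b hab hF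
  have m0 : ∀ i : Fin m, (Pi.single (.inr 0) 1 : (Fin m ⊕ Fin m) ⊕ Fin 2 → F) ∈
      perp2 (qMinus m F a b) (Pi.single (.inl (.inl i)) 1) (Pi.single (.inl (.inr i)) 1) := by
    intro i
    have := mem_perp_minus (m := m) a b i 1 0
    rwa [one_smul, zero_smul, add_zero] at this
  exact ⟨_, _, _, _, _, _, _, _, op_qMinus a b h01, op_qMinus a b h02, op_qMinus a b h12, hpl, ⟨m0 _, m0 _, m0 _⟩,
    mem_perp_minus a b _ r s, mem_perp_minus a b _ r s, mem_perp_minus a b _ r s⟩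

theorem std4_qMinus [Fintype F] {m : ℕ} (hm : 4 ≤ m) (a b : F) (hab : ∀ z₁ z₂ : F, z₁ ^ 2 + a * z₁ * z₂ + b * z₂ ^ 2 = 0 → z₁ = 0 ∧ z₂ = 0)
    (hF : Nat.card F = 2 ∨ Nat.card F = 3) : Std4 (qMinus m F a b) := by
  have h01 : (⟨0, by omega⟩ : Fin m) ≠ ⟨1, by omega⟩ := by simp
  have h02 : (⟨0, by omega⟩ : Fin m) ≠ ⟨2, by omega⟩ := by simp
  have h12 : (⟨1, by omega⟩ : Fin m) ≠ ⟨2, by omega⟩ := by simp
  have h03 : (⟨0, by omega⟩ : Fin m) ≠ ⟨3, by omega⟩ := by simp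
  have h13 : (⟨1, by omega⟩ : Fin m) ≠ ⟨3, by omega⟩ := by simp
  have h23 : (⟨2, by omega⟩ : Fin m) ≠ ⟨3, by omega⟩ := by simp
  obtain ⟨r, s, hpl⟩ := exists_pl (m := m) a b hab hF
  have m0 : ∀ i : Fin m, (Pi.single (.inr 0) 1 : (Fin m ⊕ Fin m) ⊕ Fin 2 → F) ∈
      perp2 (qMinus m F a b) (Pi.single (.inl (.inl i)) 1) (Pi.single (.inl (.inr i)) 1) := by
    intro i
    have := mem_perp_minus (m := m) a b i 1 0
    rwa [one_smul, zero_smul, add_zero] at this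
  exact ⟨_, _, _, _, _, _, _, _, _, _, op_qMinus a b h01, op_qMinus a b h02, op_qMinus a b h12, hpl, ⟨m0 _, m0 _, m0 _⟩,
    ⟨mem_perp_minus a b _ r s, mem_perp_minus a b _ r s, mem_perp_minus a b _ r s⟩, op_qMinus a b h03, op_qMinus a b h13,
    op_qMinus a b h23, m0 _, mem_perp_minus a b _ r s⟩

theorem nn_eq_cnt {V : Type*} [AddCommGroup V] [Module F V] (Q : QuadraticForm F V) [Finite F] (c : F) : nn Q ⊤ c = cnt Q c := by
  unfold nn cnt
  exact Nat.card_congr ⟨fun v => ⟨v.1, v.2.2⟩, fun v => ⟨v.1, trivial, v.2⟩, fun _ => rfl, fun _ => rfl⟩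

end

section base

theorem base3 : ∀ a b c : ZMod 3, c ≠ 0 → (∀ z₁ z₂ : ZMod 3, z₁ ^ 2 + a * z₁ * z₂ + b * z₂ ^ 2 = 0 → z₁ = 0 ∧ z₂ = 0) →
    (Finset.univ.filter fun p : ZMod 3 × ZMod 3 => p.1 ^ 2 + a * p.1 * p.2 + b * p.2 ^ 2 = c).card = 4 := by decide

theorem base2 : ∀ a b c : ZMod 2, c ≠ 0 → (∀ z₁ z₂ : ZMod 2, z₁ ^ 2 + a * z₁ * z₂ + b * z₂ ^ 2 = 0 → z₁ = 0 ∧ z₂ = 0) →
    (Finset.univ.filter fun p : ZMod 2 × ZMod 2 => p.1 ^ 2 + a * p.1 * p.2 + b * p.2 ^ 2 = c).card = 3 := by decide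

variable {F : Type*} [Field F] [Fintype F]

theorem base_transfer {p : ℕ} (hp : p.Prime) (hF : Fintype.card F = p) (N : ℕ)
    (H : haveI := Fact.mk hp; ∀ a b c : ZMod p, c ≠ 0 → (∀ z₁ z₂ : ZMod p, z₁ ^ 2 + a * z₁ * z₂ + b * z₂ ^ 2 = 0 → z₁ = 0 ∧ z₂ = 0) →
      Nat.card {p : ZMod p × ZMod p // p.1 ^ 2 + a * p.1 * p.2 + b * p.2 ^ 2 = c} = N)
    (a b c : F) (hc : c ≠ 0) (hab : ∀ z₁ z₂ : F, z₁ ^ 2 + a * z₁ * z₂ + b * z₂ ^ 2 = 0 → z₁ = 0 ∧ z₂ = 0) :
    Nat.card {p : F × F // p.1 ^ 2 + a * p.1 * p.2 + b * p.2 ^ 2 = c} = N := by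
  haveI := Fact.mk hp
  let e : ZMod p ≃+* F := ZMod.ringEquivOfPrime F hp hF
  have key : ∀ z₁ z₂ : ZMod p, e (z₁ ^ 2 + e.symm a * z₁ * z₂ + e.symm b * z₂ ^ 2) = (e z₁) ^ 2 + a * (e z₁) * (e z₂) + b * (e z₂) ^ 2 := by
    intro z₁ z₂
    simp only [map_add, map_mul, map_pow, RingEquiv.apply_symm_apply]
  rw [← H (e.symm a) (e.symm b) (e.symm c) ?_ ?_]
  · refine Nat.card_congr ⟨fun x => ⟨(e.symm x.1.1, e.symm x.1.2), ?_⟩, fun x => ⟨(e x.1.1, e x.1.2), ?_⟩, ?_, ?_⟩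
    · apply e.injective
      rw [key, RingEquiv.apply_symm_apply, RingEquiv.apply_symm_apply, RingEquiv.apply_symm_apply]
      exact x.2
    · rw [← key, x.2, RingEquiv.apply_symm_apply]
    · intro x; simp
    · intro x; simp
  · intro h
    apply hc
    rw [← e.apply_symm_apply c, h, map_zero]
  · intro z₁ z₂ h
    have h2 := hab (e z₁) (e z₂) (by rw [← key, h, map_zero])
    exact ⟨by rw [← e.symm_apply_apply z₁, h2.1, map_zero], by rw [← e.symm_apply_apply z₂, h2.2, map_zero]⟩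

theorem base_count (hF : Fintype.card F = 2 ∨ Fintype.card F = 3) (a b c : F) (hc : c ≠ 0)
    (hab : ∀ z₁ z₂ : F, z₁ ^ 2 + a * z₁ * z₂ + b * z₂ ^ 2 = 0 → z₁ = 0 ∧ z₂ = 0) :
    Nat.card {p : F × F // p.1 ^ 2 + a * p.1 * p.2 + b * p.2 ^ 2 = c} = Fintype.card F + 1 := by
  rcases hF with h | h
  · rw [h]
    refine base_transfer Nat.prime_two h 3 ?_ a b c hc hab
    intro a b c hc hab
    rw [Nat.card_eq_fintype_card, Fintype.card_subtype]
    exact base2 a b c hc hab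
  · rw [h]
    refine base_transfer Nat.prime_three h 4 ?_ a b c hc hab
    intro a b c hc hab
    rw [Nat.card_eq_fintype_card, Fintype.card_subtype]
    exact base3 a b c hc hab

theorem cnt_minus_c (hF : Fintype.card F = 2 ∨ Fintype.card F = 3) (m : ℕ) (a b : F)
    (hab : ∀ z₁ z₂ : F, z₁ ^ 2 + a * z₁ * z₂ + b * z₂ ^ 2 = 0 → z₁ = 0 ∧ z₂ = 0) (c : F) (hc : c ≠ 0) :
    cnt (qMinus m F a b) c = Fintype.card F ^ (2 * m + 1) + Fintype.card F ^ m := by
  refine count_zero (fun j => 2 * j + 2) (fun j => Fintype.card F ^ (2 * j + 1) + Fintype.card F ^ j) (fun j => by ring) (fun j => ?_) c m _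
    (qMinus m F a b) (by simp; ring) (famMinus m F) (qfam_minus m a b) ?_
  · obtain ⟨r, hr⟩ : ∃ r, Fintype.card F = r + 1 := ⟨Fintype.card F - 1, by have := Fintype.card_pos (α := F); omega⟩
    rw [hr, Nat.add_sub_cancel]; ring
  · rw [mul_zero, zero_add, pow_one, pow_zero, ← base_count hF a b c hc hab]
    have hval : ∀ r s : F, qMinus m F a b (Pi.single (.inr 0) r + Pi.single (.inr 1) s) = r ^ 2 + a * r * s + b * s ^ 2 := by
      intro r s
      rw [coe_qMinus]; unfold Cfsg.quadFormMinus; simp [Pi.single_apply]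
    refine Nat.card_congr ⟨fun x => ⟨(x.1 (.inr 0), x.1 (.inr 1)), ?_⟩,
      fun p => ⟨Pi.single (.inr 0) p.1.1 + Pi.single (.inr 1) p.1.2, ?_, ?_⟩, ?_, ?_⟩
    · have h1 := (cperp_minus m a b x.1).1 x.2.1
      have h2 := x.2.2
      rw [h1, hval] at h2
      exact h2
    · rw [cperp_minus]
      simp
    · rw [hval]
      exact p.2
    · intro x
      apply Subtype.ext
      exact ((cperp_minus m a b x.1).1 x.2.1).symm
    · intro p
      apply Subtype.ext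
      simp

end base

end CfsgLib.Oy
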