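import Cfsg.Agent.LibOy4

set_option autoImplicit false
set_option linter.unusedSectionVars false

/-! Traces for orthogonal groups (helper26). -/

namespace CfsgLib.Oy

open Cfsg.Agent.H22 Module CfsgLib.Wt CfsgLib.WtQ CfsgLib.WtSp CfsgLib.SLw

/-- indicator -/
noncomputable def ind (p : Prop) : ℂ := open Classical in if p then 1 else 0

theorem ind_pos {p : Prop} (h : p) : ind p = 1 := by unfold ind; rw [if_pos h]

theorem ind_neg {p : Prop} (h : ¬ p) : ind p = 0 := by unfold ind; rw [if_neg h]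

section rep
variable {F V : Type*} [Field F] [Finite F] [AddCommGroup V] [Module F V] [FiniteDimensional F V] {Q : QuadraticForm F V}
  {E : Type*} [AddCommGroup E] [Module ℂ E] {ρ : Representation ℂ (EG Q) E} {ψ : AddChar F ℂ}

theorem sum_ind (W : Submodule F V) (p : V → Prop) : ∑ r : W, ind (p r) = (Nat.card {v : V // v ∈ W ∧ p v} : ℂ) := by
  classical
  unfold ind
  rw [Finset.sum_ite, Finset.sum_const_zero, add_zero, Finset.sum_const, nsmul_eq_mul, mul_one]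
  congr 1
  rw [← Fintype.card_subtype, ← Nat.card_eq_fintype_card]
  exact Nat.card_congr ⟨fun v => ⟨v.1.1, v.1.2, v.2⟩, fun v => ⟨⟨v.1, v.2.1⟩, v.2.2⟩, fun _ => rfl, fun _ => rfl⟩

theorem sum_ind_nn (W U : Submodule F V) (c : F) : ∑ r : W, ind ((r : V) ∈ U ∧ Q r = c) = (nn Q (U ⊓ W) c : ℂ) := by
  rw [sum_ind W (fun r => r ∈ U ∧ Q r = c)]
  unfold nn
  congr 1
  exact Nat.card_congr ⟨fun v => ⟨v.1, ⟨v.2.2.1, v.2.1⟩, v.2.2.2⟩, fun v => ⟨v.1, v.2.1.2, v.2.1.1, v.2.2⟩,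
    fun _ => rfl, fun _ => rfl⟩

theorem sum_ind_zero (W : Submodule F V) : ∑ r : W, ind ((r : V) = 0) = 1 := by
  rw [sum_ind W (fun r => r = 0)]
  have : Nat.card {v : V // v ∈ W ∧ v = 0} = 1 := by
    rw [Nat.card_eq_one_iff_unique]
    exact ⟨⟨fun a b => Subtype.ext (a.2.2.trans b.2.2.symm)⟩, ⟨⟨0, W.zero_mem, rfl⟩⟩⟩
  rw [this, Nat.cast_one]

theorem card_span {z : V} (hz : z ≠ 0) : Nat.card (Submodule.span F {z}) = Nat.card F :=
  Nat.card_congr (LinearEquiv.toSpanNonzeroSingleton F V z hz).toEquiv.symm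

theorem sum_ind_span (W : Submodule F V) {z : V} (hz : z ≠ 0) (hzW : z ∈ W) :
    ∑ r : W, ind ((r : V) ∈ Submodule.span F {z}) = (Nat.card F : ℂ) := by
  rw [sum_ind W (fun r => r ∈ Submodule.span F {z}), ← card_span (F := F) hz]
  congr 1
  refine Nat.card_congr ⟨fun v => ⟨v.1, v.2.2⟩, fun v => ⟨v.1, ?_, v.2⟩, fun _ => rfl, fun _ => rfl⟩
  obtain ⟨c, hc⟩ := Submodule.mem_span_singleton.1 v.2
  rw [← hc]
  exact W.smul_mem _ hzW

theorem trace_sum [FiniteDimensional ℂ E] (B : Big Q) (hψ : ψ ≠ 1) {x x' : V} (h : HP Q x x') (T : E →ₗ[ℂ] E) :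
    LinearMap.trace ℂ E T = ∑ r : perp2 Q x x', LinearMap.trace ℂ E (T * pw ρ ψ h r) := by
  rw [← map_sum, ← Finset.mul_sum]
  have h1 : ∑ r : perp2 Q x x', pw ρ ψ h (r : V) = 1 := by
    rw [← sum_pr_eq_one ρ (jx h)]
    exact Fintype.sum_bijective _ (chi_bij hψ (perp2 Q x x') (perp2_nondeg B.hQ h)) _ _ (fun r => rfl)
  rw [h1, mul_one]

theorem pw_eq_zero {x x' : V} (h : HP Q x x') {r : V} (hr : wx ρ ψ h r = ⊥) : pw ρ ψ h r = 0 := by
  apply LinearMap.ext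
  intro v
  have : pw ρ ψ h r v ∈ wx ρ ψ h r := pr_mem ρ (jx h) _ v
  rw [hr, Submodule.mem_bot] at this
  rw [this, LinearMap.zero_apply]

theorem pw_zero {x x' : V} (h : HP Q x x') : pw ρ ψ h 0 = ex ρ x := by
  rw [ex_eq ρ h, av_eq ρ x (perp2 Q x x') h.1 (fun w hw => hw.1)]
  unfold pw jx
  congr 1
  ext w
  rw [chi_apply, QuadraticMap.polar_zero_left, AddChar.map_zero_eq_one, AddChar.zero_apply]

theorem trace_pw [FiniteDimensional ℂ E] {x x' : V} (h : HP Q x x') (r : V) :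
    LinearMap.trace ℂ E (pw ρ ψ h r) = (finrank ℂ (wx ρ ψ h r) : ℂ) := trace_pr ρ (jx h) _

theorem pw_range {x x' : V} (h : HP Q x x') (r : V) (v : E) : pw ρ ψ h r v ∈ wx ρ ψ h r := pr_mem ρ (jx h) _ v

/-- absorption -/
theorem av_absorb {z : V} {M : Submodule F V} (hz : Q z = 0) (hM : ∀ w ∈ M, QuadraticMap.polar Q z w = 0) {w₀ : V}
    (hw₀ : w₀ ∈ M) : av ρ z M * ρ (El Q z w₀) = av ρ z M := by
  unfold av
  rw [smul_mul_assoc, Finset.sum_mul]
  congr 1
  let e : M ≃ M := Equiv.addRight ⟨w₀, hw₀⟩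
  refine Fintype.sum_equiv e _ _ fun w => ?_
  rw [← map_mul, El_add hz (hM _ w.2) (hM _ hw₀)]
  rfl

theorem av_absorb' {z : V} {M : Submodule F V} (hz : Q z = 0) (hM : ∀ w ∈ M, QuadraticMap.polar Q z w = 0) {w₀ : V}
    (hw₀ : w₀ ∈ M) : ρ (El Q z w₀) * av ρ z M = av ρ z M := by
  unfold av
  rw [mul_smul_comm, Finset.mul_sum]
  congr 1
  let e : M ≃ M := Equiv.addLeft ⟨w₀, hw₀⟩
  refine Fintype.sum_equiv e _ _ fun w => ?_
  rw [← map_mul, El_add hz (hM _ hw₀) (hM _ w.2)]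
  rfl

theorem av_apply_eq {z : V} {M : Submodule F V} {v : E} (h : ∀ w ∈ M, ρ (El Q z w) v = v) : av ρ z M v = v := by
  unfold av
  rw [LinearMap.smul_apply, LinearMap.sum_apply, Finset.sum_congr rfl (fun w _ => h w.1 w.2), Finset.sum_const,
    Finset.card_univ, ← Nat.cast_smul_eq_nsmul ℂ, smul_smul, inv_mul_cancel₀, one_smul]
  exact_mod_cast Fintype.card_ne_zero

theorem av_mul_pw_of_fix {x x' : V} (h : HP Q x x') {r z : V} {M : Submodule F V}
    (hf : ∀ v ∈ wx ρ ψ h r, ∀ w ∈ M, ρ (El Q z w) v = v) : av ρ z M * pw ρ ψ h r = pw ρ ψ h r := by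
  apply LinearMap.ext
  intro v
  exact av_apply_eq (fun w hw => hf _ (pw_range h r v) w hw)

theorem av_mul_pw_zero {x x' : V} (h : HP Q x x') {r z : V} {M : Submodule F V} (hz : Q z = 0)
    (hM : ∀ w ∈ M, QuadraticMap.polar Q z w = 0) {w₀ : V} (hw₀ : w₀ ∈ M) {c : ℂ} (hc : c ≠ 1)
    (hf : ∀ v ∈ wx ρ ψ h r, ρ (El Q z w₀) v = c • v) : av ρ z M * pw ρ ψ h r = 0 := by
  apply LinearMap.ext
  intro v
  have h1 := LinearMap.congr_fun (av_absorb (ρ := ρ) hz hM hw₀) (pw ρ ψ h r v)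
  rw [Module.End.mul_apply, hf _ (pw_range h r v), map_smul] at h1
  have h2 : (c - 1) • av ρ z M (pw ρ ψ h r v) = 0 := by rw [sub_smul, h1, one_smul, sub_self]
  rcases smul_eq_zero.1 h2 with h3 | h3
  · exact absurd (sub_eq_zero.1 h3) hc
  · exact h3

theorem exists_psi_ne (hψ : ψ ≠ 1) {a : F} (ha : a ≠ 0) : ∃ β : F, ψ (β * a) ≠ 1 := by
  by_contra hc
  push Not at hc
  apply hψ
  ext b
  rw [AddChar.one_apply]
  have := hc (b * a⁻¹)
  rwa [mul_assoc, inv_mul_cancel₀ ha, mul_one] at this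

/-- subgroups of the unipotent radical on weight spaces -/
theorem avx_mul (hψ : ψ ≠ 1) {x x' : V} (h : HP Q x x') {M : Submodule F V} (hM : M ≤ perp2 Q x x') (r : V) :
    ((∀ w ∈ M, QuadraticMap.polar Q r w = 0) → av ρ x M * pw ρ ψ h r = pw ρ ψ h r) ∧
    ((¬ ∀ w ∈ M, QuadraticMap.polar Q r w = 0) → av ρ x M * pw ρ ψ h r = 0) := by
  constructor
  · intro hr
    apply av_mul_pw_of_fix
    intro v hv w hw
    rw [(mem_wx ρ ψ).1 hv w (hM hw), hr w hw, AddChar.map_zero_eq_one, one_smul]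
  · intro hr
    push Not at hr
    obtain ⟨w, hw, hrw⟩ := hr
    obtain ⟨β, hβ⟩ := exists_psi_ne hψ hrw
    refine av_mul_pw_zero h h.1 (fun w hw => (hM hw).1) (M.smul_mem β hw) (c := ψ (β * QuadraticMap.polar Q r w)) hβ ?_
    intro v hv
    rw [(mem_wx ρ ψ).1 hv _ (hM (M.smul_mem β hw)), QuadraticMap.polar_smul_right, smul_eq_mul]

variable [FiniteDimensional ℂ E]

/-- averages over subgroups of the radical -/
theorem trace_avx (B : Big Q) (hψ : ψ ≠ 1) (h1 : One Q ρ ψ) {x x' : V} (h : HP Q x x') {M : Submodule F V}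
    (hM : M ≤ perp2 Q x x') : LinearMap.trace ℂ E (av ρ x M) =
      (LinearMap.trace ℂ E (ex ρ x) - 1) + (Nat.card {r : V // r ∈ perp2 Q x x' ∧ ((∀ w ∈ M, QuadraticMap.polar Q r w = 0) ∧ Q r = 0)} : ℂ) := by
  rw [trace_sum B hψ h (av ρ x M)]
  have key : ∀ r : perp2 Q x x', LinearMap.trace ℂ E (av ρ x M * pw ρ ψ h r) =
      (LinearMap.trace ℂ E (ex ρ x) - 1) * ind ((r : V) = 0) +
        ind ((∀ w ∈ M, QuadraticMap.polar Q (r : V) w = 0) ∧ Q (r : V) = 0) := by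
    intro r
    by_cases hr0 : (r : V) = 0
    · have e : (∀ w ∈ M, QuadraticMap.polar Q (r : V) w = 0) ∧ Q (r : V) = 0 := by
        rw [hr0]
        exact ⟨fun w _ => QuadraticMap.polar_zero_left _ _, QuadraticMap.map_zero Q⟩
      rw [ind_pos hr0, ind_pos e, (avx_mul hψ h hM _).1 e.1, hr0, pw_zero]
      ring
    · rw [ind_neg hr0, mul_zero, zero_add]
      by_cases hQr : Q (r : V) = 0
      · by_cases hM' : ∀ w ∈ M, QuadraticMap.polar Q (r : V) w = 0
        · rw [ind_pos ⟨hM', hQr⟩, (avx_mul hψ h hM _).1 hM', trace_pw, (h1.1 x x' h r r.2 hr0).1 hQr, Nat.cast_one]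
        · rw [ind_neg (fun hc => hM' hc.1), (avx_mul hψ h hM _).2 hM', map_zero]
      · rw [ind_neg (fun hc => hQr hc.2), pw_eq_zero h ((h1.1 x x' h r r.2 hr0).2 hQr), mul_zero, map_zero]
  rw [Finset.sum_congr rfl (fun r _ => key r), Finset.sum_add_distrib, ← Finset.mul_sum, sum_ind_zero, mul_one,
    sum_ind _ (fun r => (∀ w ∈ M, QuadraticMap.polar Q r w = 0) ∧ Q r = 0)]

theorem finrankE (B : Big Q) (hψ : ψ ≠ 1) (h1 : One Q ρ ψ) {x x' : V} (h : HP Q x x') :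
    (finrank ℂ E : ℂ) = (LinearMap.trace ℂ E (ex ρ x) - 1) + nn Q (perp2 Q x x') 0 := by
  have := trace_avx B hψ h1 h (M := ⊥) bot_le
  have e : av ρ x (⊥ : Submodule F V) = 1 := by
    apply LinearMap.ext
    intro v
    rw [av_apply_eq]
    · rfl
    · intro w hw
      rw [Submodule.mem_bot] at hw
      rw [hw, El_zero x h.1, map_one]
      rfl
  rw [e, LinearMap.trace_one] at this
  rw [this]
  congr 2
  unfold nn
  apply Nat.card_congr
  refine ⟨fun r => ⟨r.1, r.2.1, r.2.2.2⟩, fun r => ⟨r.1, r.2.1, ?_, r.2.2⟩, fun _ => rfl, fun _ => rfl⟩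
  intro w hw
  rw [Submodule.mem_bot] at hw
  rw [hw, QuadraticMap.polar_zero_right]

theorem trR (B : Big Q) (hψ : ψ ≠ 1) (h1 : One Q ρ ψ) {x x' z : V} (h : HP Q x x') (hz : z ∈ perp2 Q x x') :
    LinearMap.trace ℂ E (av ρ x (Submodule.span F {z})) =
      (LinearMap.trace ℂ E (ex ρ x) - 1) + nn Q (px Q z ⊓ perp2 Q x x') 0 := by
  rw [trace_avx B hψ h1 h (M := Submodule.span F {z}) (by rwa [Submodule.span_singleton_le_iff_mem])]
  congr 2
  unfold nn
  apply Nat.card_congr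
  refine ⟨fun r => ⟨r.1, ⟨?_, r.2.1⟩, r.2.2.2⟩, fun r => ⟨r.1, r.2.1.2, ?_, r.2.2⟩, fun _ => rfl, fun _ => rfl⟩
  · exact (QuadraticMap.polar_comm Q z r.1).trans (r.2.2.1 z (Submodule.mem_span_singleton_self z))
  · intro w hw
    obtain ⟨c, rfl⟩ := Submodule.mem_span_singleton.1 hw
    rw [QuadraticMap.polar_smul_right, QuadraticMap.polar_comm, show QuadraticMap.polar Q z r.1 = 0 from r.2.1.1, smul_zero]

/-- double orthogonal -/
theorem dbl (B : Big Q) {x x' z : V} (h : HP Q x x') (hz : z ∈ perp2 Q x x') (hz0 : z ≠ 0) (hQz : Q z = 0) {r : V}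
    (hr : r ∈ perp2 Q x x') (hrw : ∀ w ∈ perp2 Q x x' ⊓ px Q z, QuadraticMap.polar Q r w = 0) :
    r ∈ Submodule.span F {z} := by
  obtain ⟨z', hz'1, hz'2⟩ := B.exists_partner (Submodule.span F {x, x'}) z (not_mem_span_pair h hz0 hz.1 hz.2) (fun y hy => by
      obtain ⟨c, d, rfl⟩ := Submodule.mem_span_pair.1 hy
      rw [QuadraticMap.polar_add_left, QuadraticMap.polar_smul_left, QuadraticMap.polar_smul_left, hz.1, hz.2, smul_zero,
        smul_zero, add_zero]) hQz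
  have hz'm : z' ∈ perp2 Q x x' := ⟨hz'1 x (Submodule.subset_span (by simp)), hz'1 x' (Submodule.subset_span (by simp))⟩
  set a := QuadraticMap.polar Q z' r with ha
  have hzr : QuadraticMap.polar Q r z = 0 := hrw z ⟨hz, by
    change QuadraticMap.polar Q z z = 0
    exact hz'2.ee⟩
  have : r - a • z = 0 := by
    apply perp2_nondeg B.hQ h _ (Submodule.sub_mem _ hr (Submodule.smul_mem _ _ hz))
    intro w hw
    -- split `w = w1 + c z'`
    set c := QuadraticMap.polar Q z w with hc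
    have e1 : QuadraticMap.polar Q r (w - c • z') = 0 := by
      apply hrw
      refine ⟨Submodule.sub_mem _ hw (Submodule.smul_mem _ _ hz'm), ?_⟩
      change QuadraticMap.polar Q z (w - c • z') = 0
      rw [QuadraticMap.polar_sub_right, QuadraticMap.polar_smul_right, hz'2.2.2, ← hc, smul_eq_mul, mul_one, sub_self]
    rw [QuadraticMap.polar_sub_right, QuadraticMap.polar_smul_right, QuadraticMap.polar_comm Q r z', ← ha, sub_eq_zero] at e1
    rw [QuadraticMap.polar_sub_left, QuadraticMap.polar_smul_left, e1, ← hc, smul_eq_mul, smul_eq_mul]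
    ring
  rw [sub_eq_zero] at this
  rw [this]
  exact Submodule.smul_mem _ _ (Submodule.mem_span_singleton_self z)

theorem trA (B : Big Q) (hψ : ψ ≠ 1) (h1 : One Q ρ ψ) {x x' z : V} (h : HP Q x x') (hz : z ∈ perp2 Q x x') (hz0 : z ≠ 0)
    (hQz : Q z = 0) : LinearMap.trace ℂ E (av ρ x (px Q x ⊓ px Q z)) =
      (LinearMap.trace ℂ E (ex ρ x) - 1) + Nat.card F := by
  have hxz : x ∈ px Q z := (QuadraticMap.polar_comm Q z x).trans hz.1
  rw [av_partner ρ h _ hxz, trace_avx B hψ h1 h inf_le_left]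
  congr 2
  rw [← card_span (F := F) hz0]
  apply Nat.card_congr
  refine ⟨fun r => ⟨r.1, dbl B h hz hz0 hQz r.2.1 r.2.2.1⟩, fun r => ⟨r.1, ?_, ?_, ?_⟩, fun _ => rfl, fun _ => rfl⟩
  · obtain ⟨c, hc⟩ := Submodule.mem_span_singleton.1 r.2
    rw [← hc]
    exact Submodule.smul_mem _ _ hz
  · intro w hw
    obtain ⟨c, hc⟩ := Submodule.mem_span_singleton.1 r.2
    rw [← hc, QuadraticMap.polar_smul_left, show QuadraticMap.polar Q z w = 0 from hw.2, smul_zero]
  · obtain ⟨c, hc⟩ := Submodule.mem_span_singleton.1 r.2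
    rw [← hc, qsmul, hQz, mul_zero]

end rep

end CfsgLib.Oy
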