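import Mathlib
import Cfsg.Prelude.Def_Transfer

set_option autoImplicit false
set_option linter.style.haveILetI false

/-!
Counting conjugacy classes of `p`-elements: the elements of a Sylow subgroup not fused to
any other element of it form a subgroup.
-/

namespace CfsgLib.PClasses

open Finset
open scoped Pointwise

variable {G : Type*} [Group G] [Finite G]

/-- type of conjugacy classes of `p`-elements -/
abbrev KP (p : ℕ) (G : Type*) [Group G] : Type _ :=
  {c : ConjClasses G // ∀ x ∈ c.carrier, ∃ k : ℕ, orderOf x = p ^ k}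

/-- elements of the Sylow subgroup with no other conjugate in the Sylow subgroup -/
def singles {p : ℕ} [Fact p.Prime] (P : Sylow p G) : Subgroup G where
  carrier := {x | x ∈ (P : Subgroup G) ∧ ∀ g : G, g * x * g⁻¹ ∈ (P : Subgroup G) → g * x * g⁻¹ = x}
  one_mem' := ⟨one_mem _, fun g _ => by simp⟩
  inv_mem' := by
    rintro x ⟨hx, h⟩
    refine ⟨inv_mem hx, fun g hg => ?_⟩
    have h1 : g * x⁻¹ * g⁻¹ = (g * x * g⁻¹)⁻¹ := by group
    rw [h1] at hg ⊢
    rw [h g (by simpa using inv_mem hg)]
  mul_mem' := by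
    rintro x y ⟨hx, hx'⟩ ⟨hy, hy'⟩
    refine ⟨mul_mem hx hy, fun g hg => ?_⟩
    -- x, y are central in P
    have hxc : ∀ s ∈ (P : Subgroup G), s * x = x * s := by
      intro s hs
      have := hx' s (mul_mem (mul_mem hs hx) (inv_mem hs))
      rwa [mul_inv_eq_iff_eq_mul] at this
    have hyc : ∀ s ∈ (P : Subgroup G), s * y = y * s := by
      intro s hs
      have := hy' s (mul_mem (mul_mem hs hy) (inv_mem hs))
      rwa [mul_inv_eq_iff_eq_mul] at this
    set w : G := g * (x * y) * g⁻¹ with hw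
    -- conj of P by g, call R, centralizes w
    let R : Sylow p G := g • P
    have hRC : (R : Subgroup G) ≤ Subgroup.centralizer ({w} : Set G) := by
      intro r hr
      rw [Subgroup.mem_centralizer_singleton_iff]
      have hr' : r ∈ MulAut.conj g • (P : Subgroup G) := by
        simpa [R, Sylow.coe_subgroup_smul] using hr
      rw [Subgroup.mem_smul_pointwise_iff_exists] at hr'
      obtain ⟨s, hs, rfl⟩ := hr'
      simp only [MulAut.smul_def, MulAut.conj_apply]
      rw [hw]
      have h1 : s * (x * y) = (x * y) * s := by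
        rw [← mul_assoc, hxc s hs, mul_assoc, hyc s hs, mul_assoc]
      calc g * s * g⁻¹ * (g * (x * y) * g⁻¹) = g * (s * (x * y)) * g⁻¹ := by group
        _ = g * ((x * y) * s) * g⁻¹ := by rw [h1]
        _ = g * (x * y) * g⁻¹ * (g * s * g⁻¹) := by group
    -- P ∩ C(w) conj into R
    let C : Subgroup G := Subgroup.centralizer ({w} : Set G)
    let RC : Sylow p C := R.subtype hRC
    have hPC : IsPGroup p (((P : Subgroup G) ⊓ C).subgroupOf C) := by
      have h1 : IsPGroup p ((P : Subgroup G) ⊓ C : Subgroup G) := P.isPGroup'.to_le inf_le_left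
      exact h1.comap_subtype
    obtain ⟨T, hT⟩ := hPC.exists_le_sylow
    obtain ⟨c, hc⟩ := MulAction.exists_smul_eq C T RC
    have key : ∀ z ∈ (P : Subgroup G), z ∈ C → (c : G) * z * (c : G)⁻¹ ∈ MulAut.conj g • (P : Subgroup G) := by
      intro z hz hzC
      have h1 : (⟨z, hzC⟩ : C) ∈ (T : Subgroup C) := by
        apply hT
        rw [Subgroup.mem_subgroupOf]
        exact ⟨hz, hzC⟩
      have h2 : c * (⟨z, hzC⟩ : C) * c⁻¹ ∈ ((c • T : Sylow p C) : Subgroup C) := by
        rw [Sylow.coe_subgroup_smul]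
        have := Subgroup.smul_mem_pointwise_smul (⟨z, hzC⟩ : C) (MulAut.conj c) (T : Subgroup C) h1
        simpa using this
      rw [hc] at h2
      have h3 : ((c * (⟨z, hzC⟩ : C) * c⁻¹ : C) : G) ∈ (R : Subgroup G) := by
        have : (RC : Subgroup C) = (R : Subgroup G).subgroupOf C := Sylow.coe_subtype R hRC
        rw [this, Subgroup.mem_subgroupOf] at h2
        exact h2
      simpa [R, Sylow.coe_subgroup_smul] using h3
    have hxC : x ∈ C := by
      rw [Subgroup.mem_centralizer_singleton_iff]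
      exact (hxc w hg).symm
    have hyC : y ∈ C := by
      rw [Subgroup.mem_centralizer_singleton_iff]
      exact (hyc w hg).symm
    have conv : ∀ z : G, (c : G) * z * (c : G)⁻¹ ∈ MulAut.conj g • (P : Subgroup G) → (g⁻¹ * c) * z * (g⁻¹ * c)⁻¹ ∈ (P : Subgroup G) := by
      intro z hz
      rw [Subgroup.mem_smul_pointwise_iff_exists] at hz
      obtain ⟨s, hs, h1⟩ := hz
      simp only [MulAut.smul_def, MulAut.conj_apply] at h1
      have : (g⁻¹ * c) * z * (g⁻¹ * c)⁻¹ = s := by
        calc (g⁻¹ * c) * z * (g⁻¹ * c)⁻¹ = g⁻¹ * (c * z * (c : G)⁻¹) * g := by group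
          _ = g⁻¹ * (g * s * g⁻¹) * g := by rw [h1]
          _ = s := by group
      rw [this]; exact hs
    have hx1 := hx' (g⁻¹ * c) (conv x (key x hx hxC))
    have hy1 := hy' (g⁻¹ * c) (conv y (key y hy hyC))
    have hxy : (g⁻¹ * c) * (x * y) * (g⁻¹ * c)⁻¹ = x * y := by
      calc (g⁻¹ * c) * (x * y) * (g⁻¹ * c)⁻¹ = ((g⁻¹ * c) * x * (g⁻¹ * c)⁻¹) * ((g⁻¹ * c) * y * (g⁻¹ * c)⁻¹) := by group
        _ = x * y := by rw [hx1, hy1]
    -- so c (xy) c⁻¹ = w, and c centralizes w
    have h5 : (c : G) * (x * y) * (c : G)⁻¹ = w := by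
      rw [hw]
      calc (c : G) * (x * y) * (c : G)⁻¹ = g * ((g⁻¹ * c) * (x * y) * (g⁻¹ * c)⁻¹) * g⁻¹ := by group
        _ = _ := by rw [hxy]
    have h6 : (c : G) * w = w * c := by
      have := c.2
      rwa [Subgroup.mem_centralizer_singleton_iff] at this
    have h7 : (c : G) * (x * y) = c * w := by
      rw [h6, ← h5]; group
    exact (mul_left_cancel h7).symm

theorem singles_le {p : ℕ} [Fact p.Prime] (P : Sylow p G) : singles P ≤ (P : Subgroup G) := fun _ h => h.1

theorem mem_singles {p : ℕ} [Fact p.Prime] (P : Sylow p G) {x : G} :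
    x ∈ singles P ↔ x ∈ (P : Subgroup G) ∧ ∀ g : G, g * x * g⁻¹ ∈ (P : Subgroup G) → g * x * g⁻¹ = x := Iff.rfl

/-- class map from the Sylow subgroup -/
def toKP {p : ℕ} [Fact p.Prime] (P : Sylow p G) (x : (P : Subgroup G)) : KP p G :=
  ⟨ConjClasses.mk (x : G), by
    intro y hy
    rw [ConjClasses.mem_carrier_iff_mk_eq, ConjClasses.mk_eq_mk_iff_isConj] at hy
    obtain ⟨k, hk⟩ := IsPGroup.iff_orderOf.1 P.isPGroup' x
    refine ⟨k, ?_⟩
    obtain ⟨c, hc⟩ := isConj_iff.1 hy
    rw [← hk, ← Subgroup.orderOf_coe x, ← hc]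
    exact (MulEquiv.orderOf_eq (MulAut.conj c) y).symm⟩

theorem toKP_surjective {p : ℕ} [Fact p.Prime] (P : Sylow p G) : Function.Surjective (toKP P) := by
  rintro ⟨c, hc⟩
  obtain ⟨x, rfl⟩ := ConjClasses.exists_rep c
  obtain ⟨k, hk⟩ := hc x ConjClasses.mem_carrier_mk
  have hz : IsPGroup p (Subgroup.zpowers x) := by
    apply IsPGroup.of_card (n := k)
    rw [Nat.card_zpowers, hk]
  obtain ⟨Q, hQ⟩ := hz.exists_le_sylow
  obtain ⟨g, hg⟩ := MulAction.exists_smul_eq G Q P
  have hx : g * x * g⁻¹ ∈ (P : Subgroup G) := by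
    rw [← hg, Sylow.coe_subgroup_smul]
    have := Subgroup.smul_mem_pointwise_smul x (MulAut.conj g) (Q : Subgroup G) (hQ (Subgroup.mem_zpowers x))
    simpa using this
  refine ⟨⟨g * x * g⁻¹, hx⟩, ?_⟩
  apply Subtype.ext
  change ConjClasses.mk (g * x * g⁻¹) = ConjClasses.mk x
  rw [ConjClasses.mk_eq_mk_iff_isConj]
  exact (isConj_iff.2 ⟨g, rfl⟩).symm

theorem card_KP_le {p : ℕ} [Fact p.Prime] (P : Sylow p G) : Nat.card (KP p G) ≤ Nat.card (P : Subgroup G) :=
  Nat.card_le_card_of_surjective _ (toKP_surjective P)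

/-- `2 k_p(G) ≤ |P| + |singles|`. -/
theorem two_card_KP_le {p : ℕ} [Fact p.Prime] (P : Sylow p G) :
    2 * Nat.card (KP p G) ≤ Nat.card (P : Subgroup G) + Nat.card (singles P) := by
  classical
  haveI : Fintype G := Fintype.ofFinite G
  haveI : Fintype (KP p G) := Fintype.ofFinite _
  haveI : Fintype (P : Subgroup G) := Fintype.ofFinite _
  let A : Finset (P : Subgroup G) := Finset.univ.filter (fun x => (x : G) ∈ singles P)
  have hA : A.card = Nat.card (singles P) := by
    rw [← Fintype.card_coe, ← Nat.card_eq_fintype_card]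
    apply Nat.card_congr
    refine ⟨fun x => ⟨((x : (P : Subgroup G)) : G), (Finset.mem_filter.1 x.2).2⟩, fun x => ⟨⟨x, singles_le P x.2⟩, Finset.mem_filter.2 ⟨Finset.mem_univ _, x.2⟩⟩, ?_, ?_⟩
    · intro x; rfl
    · intro x; rfl
  have h1 : (Finset.univ : Finset (P : Subgroup G)).card = ∑ c : KP p G, (Finset.univ.filter (fun x => toKP P x = c)).card :=
    Finset.card_eq_sum_card_fiberwise (fun _ _ => Finset.mem_univ _)
  have h2 : A.card = ∑ c : KP p G, (A.filter (fun x => toKP P x = c)).card :=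
    Finset.card_eq_sum_card_fiberwise (fun _ _ => Finset.mem_univ _)
  have h3 : ∀ c : KP p G, 2 ≤ (Finset.univ.filter (fun x => toKP P x = c)).card + (A.filter (fun x => toKP P x = c)).card := by
    intro c
    obtain ⟨x, hx⟩ := toKP_surjective P c
    have hx1 : x ∈ Finset.univ.filter (fun x => toKP P x = c) := by simp [hx]
    by_cases hA : (x : G) ∈ singles P
    · have hx2 : x ∈ A.filter (fun x => toKP P x = c) := by
        simp [A, hA, hx]
      have e1 := Finset.card_pos.2 ⟨x, hx1⟩
      have e2 := Finset.card_pos.2 ⟨x, hx2⟩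
      omega
    · have : ∃ y : (P : Subgroup G), toKP P y = c ∧ y ≠ x := by
        by_contra hcon
        push Not at hcon
        apply hA
        refine ⟨x.2, fun g hg => ?_⟩
        have := hcon ⟨g * x * g⁻¹, hg⟩ (by
          rw [← hx]
          apply Subtype.ext
          change ConjClasses.mk (g * x * g⁻¹) = ConjClasses.mk (x : G)
          rw [ConjClasses.mk_eq_mk_iff_isConj]
          exact (isConj_iff.2 ⟨g, rfl⟩).symm)
        exact congrArg Subtype.val this
      obtain ⟨y, hy, hne⟩ := this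
      have e1 : 1 < (Finset.univ.filter (fun x => toKP P x = c)).card :=
        Finset.one_lt_card.2 ⟨y, by simp [hy], x, hx1, hne⟩
      omega
  have h4 : ∑ c : KP p G, 2 ≤ ∑ c : KP p G, ((Finset.univ.filter (fun x => toKP P x = c)).card + (A.filter (fun x => toKP P x = c)).card) :=
    Finset.sum_le_sum (fun c _ => h3 c)
  rw [Finset.sum_add_distrib, ← h1, ← h2, hA, Finset.sum_const, Finset.card_univ, Finset.card_univ, smul_eq_mul] at h4
  rw [Nat.card_eq_fintype_card, Nat.card_eq_fintype_card (α := (P : Subgroup G)), mul_comm]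
  exact h4

/-- If no element of `P` is fused to another one then `G` has a normal `p`-complement and `P` is abelian. -/
theorem of_singles_eq {p : ℕ} [Fact p.Prime] (P : Sylow p G) (h : (P : Subgroup G) ≤ singles P) :
    Cfsg.HasNormalPComplement p G ∧ IsMulCommutative (P : Subgroup G) := by
  have hab : ∀ s ∈ (P : Subgroup G), ∀ t ∈ (P : Subgroup G), s * t = t * s := by
    intro s hs t ht
    have := (h ht).2 s (mul_mem (mul_mem hs ht) (inv_mem hs))
    rwa [mul_inv_eq_iff_eq_mul] at this
  have hB : Subgroup.normalizer ((P : Subgroup G) : Set G) ≤ Subgroup.centralizer ((P : Subgroup G) : Set G) := by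
    intro g hg
    rw [Subgroup.mem_centralizer_iff]
    intro t ht
    have := (h ht).2 g ((Subgroup.mem_normalizer_iff.1 hg t).1 ht)
    rw [mul_inv_eq_iff_eq_mul] at this
    exact this.symm
  refine ⟨⟨P, (MonoidHom.transferSylow P hB).ker, inferInstance, MonoidHom.ker_transferSylow_isComplement' P hB⟩, ?_⟩
  exact ⟨⟨fun a b => Subtype.ext (hab a a.2 b b.2)⟩⟩

theorem main_forward {p : ℕ} [Fact p.Prime] (P : Sylow p G)
    (h : (p + 1) * Nat.card (P : Subgroup G) < 2 * p * Nat.card (KP p G)) :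
    Cfsg.HasNormalPComplement p G ∧ IsMulCommutative (P : Subgroup G) := by
  apply of_singles_eq
  have h1 := two_card_KP_le P
  have hp : p.Prime := Fact.out
  have h2 : Nat.card (P : Subgroup G) < p * Nat.card (singles P) := by
    have : p * (2 * Nat.card (KP p G)) ≤ p * (Nat.card (P : Subgroup G) + Nat.card (singles P)) :=
      Nat.mul_le_mul_left p h1
    nlinarith
  -- index of singles in P is < p and a power of p
  have h3 : Nat.card (singles P) * (singles P).relIndex P = Nat.card (P : Subgroup G) := by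
    have := Subgroup.relIndex_mul_relIndex ⊥ (singles P) (P : Subgroup G) bot_le (singles_le P)
    simpa [Subgroup.relIndex_bot_left] using this
  have h4 : (singles P).relIndex P < p := by
    by_contra hcon
    push Not at hcon
    have : Nat.card (singles P) * p ≤ Nat.card (singles P) * (singles P).relIndex P := Nat.mul_le_mul_left _ hcon
    rw [h3] at this
    nlinarith
  obtain ⟨n, hn⟩ := P.isPGroup'.index ((singles P).subgroupOf P)
  have h5 : (singles P).relIndex P = p ^ n := hn
  have h6 : n = 0 := by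
    by_contra hne
    have : p ≤ p ^ n := Nat.le_self_pow hne p
    omega
  rw [h6, pow_zero] at h5
  exact Subgroup.relIndex_eq_one.1 h5

/-- two elements of a Sylow subgroup conjugate in a group with a normal `p`-complement are
already conjugate in the Sylow subgroup -/
theorem conj_of_complement (N P : Subgroup G) [N.Normal] (h : N.IsComplement' P)
    {x y g : G} (hx : x ∈ P) (hy : y ∈ P) (hg : g * x * g⁻¹ = y) : ∃ s ∈ P, s * x * s⁻¹ = y := by
  have htop : g ∈ N ⊔ P := by rw [h.sup_eq_top]; exact Subgroup.mem_top g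
  rw [Subgroup.mem_sup_of_normal_left] at htop
  obtain ⟨n, hn, s, hs, rfl⟩ := htop
  refine ⟨s, hs, ?_⟩
  have h1 : s * x * s⁻¹ ∈ P := mul_mem (mul_mem hs hx) (inv_mem hs)
  have h2 : y * (s * x * s⁻¹)⁻¹ ∈ N := by
    have : y * (s * x * s⁻¹)⁻¹ = n * ((s * x * s⁻¹) * n⁻¹ * (s * x * s⁻¹)⁻¹) := by
      rw [← hg]; group
    rw [this]
    exact N.mul_mem hn (Subgroup.Normal.conj_mem ‹N.Normal› _ (N.inv_mem hn) _)
  have h3 : y * (s * x * s⁻¹)⁻¹ ∈ N ⊓ P := Subgroup.mem_inf.2 ⟨h2, mul_mem hy (inv_mem h1)⟩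
  rw [h.disjoint.eq_bot, Subgroup.mem_bot, mul_inv_eq_one] at h3
  exact h3.symm

end CfsgLib.PClasses
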