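import Cfsg.Agent.EqBase

/-! Prime graph of a split extension `V^k : G` (seat helper14). -/

set_option autoImplicit false

namespace CfsgLib.PGext14

universe u v

variable {G : Type u} [Group G] {V : Type v} [AddCommGroup V] [DistribMulAction G V]

/-- the action on the multiplicative version of `V^k` -/
def phi (G : Type u) [Group G] (V : Type v) [AddCommGroup V] [DistribMulAction G V] (k : ℕ) :
    G →* MulAut (Multiplicative (Fin k → V)) where
  toFun g := AddEquiv.toMultiplicative
    { toFun := fun v i => g • v i
      invFun := fun v i => g⁻¹ • v i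
      left_inv := fun v => by funext i; exact inv_smul_smul g (v i)
      right_inv := fun v => by funext i; exact smul_inv_smul g (v i)
      map_add' := fun v w => by funext i; exact smul_add g (v i) (w i) }
  map_one' := by
    refine MulEquiv.ext fun v => ?_
    apply Multiplicative.toAdd.injective
    funext i
    exact one_smul G (Multiplicative.toAdd v i)
  map_mul' g h := by
    refine MulEquiv.ext fun v => ?_
    apply Multiplicative.toAdd.injective
    funext i
    exact mul_smul g h (Multiplicative.toAdd v i)

/-- same prime graph -/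
def SamePG (A : Type*) [Group A] (B : Type*) [Group B] : Prop :=
  (∀ p : ℕ, p.Prime → (p ∣ Nat.card A ↔ p ∣ Nat.card B)) ∧
    ∀ p q : ℕ, p.Prime → q.Prime → p ≠ q → ((∃ g : A, orderOf g = p * q) ↔ ∃ g : B, orderOf g = p * q)

theorem SamePG.trans {A : Type*} [Group A] {B : Type*} [Group B] {C : Type*} [Group C] (h : SamePG A B) (h' : SamePG B C) :
    SamePG A C :=
  ⟨fun p hp => (h.1 p hp).trans (h'.1 p hp), fun p q hp hq hne => (h.2 p q hp hq hne).trans (h'.2 p q hp hq hne)⟩

theorem SamePG.of_equiv {A : Type*} [Group A] {B : Type*} [Group B] (e : A ≃* B) : SamePG A B := by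
  refine ⟨fun p _ => by rw [Nat.card_congr e.toEquiv], fun p q _ _ _ => ?_⟩
  constructor
  · rintro ⟨g, hg⟩
    exact ⟨e g, by rw [← hg]; exact MulEquiv.orderOf_eq e g⟩
  · rintro ⟨g, hg⟩
    exact ⟨e.symm g, by rw [← hg]; exact MulEquiv.orderOf_eq e.symm g⟩

theorem mem_ker {k : ℕ} {x : Multiplicative (Fin k → V) ⋊[phi G V k] G} (hx : x.right = 1) :
    x = SemidirectProduct.inl x.left := by
  ext1 <;> simp [hx]

theorem main [Finite G] [Finite V] {r : ℕ} (hr : r.Prime) (hrG : r ∣ Nat.card G) [Nontrivial V] (hexp : ∀ v : V, r • v = 0)
    (hfix : ∀ s : ℕ, s.Prime → s ≠ r → (¬ ∃ x : G, orderOf x = r * s) → ∀ g : G, orderOf g = s → ∀ v : V, g • v = v → v = 0)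
    (N : ℕ) : ∃ (H : Type) (_ : Group H) (_ : Finite H), N < Nat.card H ∧ SamePG G H := by
  haveI hfinV : Finite (Multiplicative (Fin N → V)) := inferInstanceAs (Finite (Fin N → V))
  let H₀ := Multiplicative (Fin N → V) ⋊[phi G V N] G
  have hc₀ : Nat.card H₀ = Nat.card (Multiplicative (Fin N → V)) * Nat.card G := SemidirectProduct.card
  have hcV : Nat.card (Multiplicative (Fin N → V)) = Nat.card V ^ N := by
    have h1 : Nat.card (Multiplicative (Fin N → V)) = Nat.card (Fin N → V) := rfl
    rw [h1, Nat.card_fun, Nat.card_fin]
  have hV2 : 2 ≤ Nat.card V := Finite.one_lt_card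
  have hG1 : 0 < Nat.card G := Nat.card_pos
  haveI hfin : Finite H₀ := by
    apply Nat.finite_of_card_ne_zero
    rw [hc₀, hcV]
    have : 0 < Nat.card V := Nat.card_pos
    positivity
  have hpV : ∀ p : ℕ, p.Prime → p ∣ Nat.card V → p = r := by
    intro p hp hd
    haveI := Fact.mk hp
    obtain ⟨v, hv⟩ := exists_prime_addOrderOf_dvd_card' (G := V) p hd
    have h1 : addOrderOf v ∣ r := addOrderOf_dvd_iff_nsmul_eq_zero.2 (hexp v)
    rw [hv] at h1
    exact (Nat.prime_dvd_prime_iff_eq hp hr).1 h1
  have hexpH : ∀ x : H₀, x.right = 1 → x ^ r = 1 := by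
    intro x hx
    rw [mem_ker hx, ← map_pow]
    have : x.left ^ r = 1 := by
      apply Multiplicative.toAdd.injective
      funext i
      show r • (Multiplicative.toAdd x.left i) = 0
      exact hexp _
    rw [this, map_one]
  refine ⟨Shrink.{0} H₀, inferInstance, Finite.of_equiv _ (equivShrink.{0} H₀), ?_, ?_⟩
  · rw [Nat.card_congr (equivShrink.{0} H₀).symm, hc₀, hcV]
    calc N < 2 ^ N := Nat.lt_two_pow_self
      _ ≤ Nat.card V ^ N := Nat.pow_le_pow_left hV2 N
      _ ≤ _ := Nat.le_mul_of_pos_right _ hG1
  · refine SamePG.trans ?_ (SamePG.of_equiv (Shrink.mulEquiv : Shrink.{0} H₀ ≃* H₀).symm)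
    refine ⟨?_, ?_⟩
    · intro p hp
      rw [hc₀, hcV]
      constructor
      · intro h; exact Dvd.dvd.mul_left h _
      · intro h
        rcases (Nat.Prime.dvd_mul hp).1 h with h1 | h1
        · rw [hpV p hp (hp.dvd_of_dvd_pow h1)]; exact hrG
        · exact h1
    · -- element orders
      have key : ∀ s : ℕ, s.Prime → s ≠ r → ∀ x : H₀, orderOf x = r * s → ∃ g : G, orderOf g = r * s := by
        intro s hs hsr x hx
        by_contra hno
        set π : H₀ →* G := SemidirectProduct.rightHom with hπ
        have hcop : Nat.Coprime s r := (Nat.coprime_primes hs hr).2 hsr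
        -- orders
        have h1 : orderOf (π x) ∣ r * s := by rw [← hx]; exact orderOf_map_dvd π x
        have h2 : s ∣ orderOf (π x) := by
          have h3 : x ^ (orderOf (π x) * r) = 1 := by
            rw [pow_mul]
            apply hexpH
            show π (x ^ orderOf (π x)) = 1
            rw [map_pow, pow_orderOf_eq_one]
          have h4 := orderOf_dvd_of_pow_eq_one h3
          rw [hx] at h4
          have h5 : s ∣ orderOf (π x) * r := (Dvd.intro_left r rfl).trans h4
          exact hcop.dvd_of_dvd_mul_right h5
        have h6 : orderOf (π x) = s := by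
          obtain ⟨c, hc⟩ := h2
          rw [hc] at h1
          have h7 : c ∣ r := by
            have : s * c ∣ s * r := by rwa [mul_comm s r]
            exact Nat.dvd_of_mul_dvd_mul_left hs.pos this
          rcases (Nat.dvd_prime hr).1 h7 with h8 | h8
          · rw [hc, h8, mul_one]
          · exfalso; apply hno
            exact ⟨π x, by rw [hc, h8, mul_comm]⟩
        -- z = x^s ∈ V, y = x^r
        have hz : (x ^ s).right = 1 := by
          show π (x ^ s) = 1
          rw [map_pow, ← h6, pow_orderOf_eq_one]
        have hz1 : x ^ s ≠ 1 := by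
          intro h
          have := orderOf_dvd_of_pow_eq_one h
          rw [hx] at this
          have h9 := Nat.le_of_dvd hs.pos this
          have := hr.two_le
          nlinarith [hs.pos]
        have hy : orderOf (π (x ^ r)) = s := by
          rw [map_pow, Nat.Coprime.orderOf_pow (by rw [h6]; exact hcop), h6]
        have hcomm : x ^ r * x ^ s = x ^ s * x ^ r := by rw [← pow_add, ← pow_add, add_comm]
        have hl : ((x ^ r).left * phi G V N (x ^ r).right (x ^ s).left : Multiplicative (Fin N → V)) = (x ^ s).left * (x ^ r).left := by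
          have := congrArg SemidirectProduct.left hcomm
          rw [SemidirectProduct.mul_left, SemidirectProduct.mul_left, hz, map_one, MulAut.one_apply] at this
          exact this
        rw [mul_comm (x ^ s).left] at hl
        have hl2 := mul_left_cancel hl
        apply hz1
        rw [mem_ker hz]
        have hw : (x ^ s).left = 1 := by
          apply Multiplicative.toAdd.injective
          funext i
          refine hfix s hs hsr hno _ hy _ ?_
          exact congrFun (congrArg Multiplicative.toAdd hl2) i
        rw [hw, map_one]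
      intro p q hp hq hne
      constructor
      · rintro ⟨g, hg⟩
        refine ⟨SemidirectProduct.inr g, ?_⟩
        rw [← hg]
        exact orderOf_injective _ SemidirectProduct.inr_injective g
      · rintro ⟨x, hx⟩
        by_cases hpr : p = r
        · subst hpr
          exact key q hq (Ne.symm hne) x hx
        by_cases hqr : q = r
        · subst hqr
          rw [mul_comm] at hx ⊢
          exact key p hp hpr x hx
        refine ⟨SemidirectProduct.rightHom x, ?_⟩
        apply Nat.dvd_antisymm
        · rw [← hx]; exact orderOf_map_dvd _ x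
        · have h3 : x ^ (orderOf (SemidirectProduct.rightHom x) * r) = 1 := by
            rw [pow_mul]
            apply hexpH
            show SemidirectProduct.rightHom (x ^ orderOf (SemidirectProduct.rightHom x)) = 1
            rw [map_pow, pow_orderOf_eq_one]
          have h4 := orderOf_dvd_of_pow_eq_one h3
          rw [hx] at h4
          have h5 : Nat.Coprime (p * q) r := Nat.Coprime.mul_left ((Nat.coprime_primes hp hr).2 hpr) ((Nat.coprime_primes hq hr).2 hqr)
          exact h5.dvd_of_dvd_mul_right h4

end CfsgLib.PGext14
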