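import Mathlib

set_option autoImplicit false

namespace CfsgLib.PP

/-- Table-tennis with a base point: for a reduced nonempty word, the value moves the base point to one of the sets. -/
theorem aux {ι G α : Type*} [Group G] [MulAction G α] (a : ι → G) (X Y : ι → Set α)
    (v : α)
    (h1 : ∀ i, a i • v ∈ X i) (h2 : ∀ i, (a i)⁻¹ • v ∈ Y i)
    (h3 : ∀ i j, ∀ x ∈ X j, a i • x ∈ X i)
    (h4 : ∀ i j, i ≠ j → ∀ x ∈ Y j, a i • x ∈ X i)
    (h5 : ∀ i j, ∀ x ∈ Y j, (a i)⁻¹ • x ∈ Y i)
    (h6 : ∀ i j, i ≠ j → ∀ x ∈ X j, (a i)⁻¹ • x ∈ Y i) :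
    ∀ (L : List (ι × Bool)) (c : ι × Bool), FreeGroup.IsReduced (c :: L) →
      ((c.2 = true → ((c :: L).map (fun x => cond x.2 (a x.1) (a x.1)⁻¹)).prod • v ∈ X c.1) ∧
       (c.2 = false → ((c :: L).map (fun x => cond x.2 (a x.1) (a x.1)⁻¹)).prod • v ∈ Y c.1)) := by
  intro L
  induction L with
  | nil =>
    rintro ⟨i, b⟩ _
    constructor
    · intro hb
      simp only at hb
      subst hb
      simpa using h1 i
    · intro hb
      simp only at hb
      subst hb
      simpa using h2 i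
  | cons d L ih =>
    rintro ⟨i, b⟩ hred
    obtain ⟨j, b'⟩ := d
    rw [FreeGroup.isReduced_cons_cons] at hred
    obtain ⟨hij, hred'⟩ := hred
    obtain ⟨ih1, ih2⟩ := ih (j, b') hred'
    simp only at hij ih1 ih2
    constructor
    · intro hb
      simp only at hb
      subst hb
      rw [List.map_cons, List.prod_cons, mul_smul]
      cases b' with
      | true => exact h3 i j _ (ih1 rfl)
      | false =>
        have hne : i ≠ j := by
          intro h
          have := hij h
          simp at this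
        exact h4 i j hne _ (ih2 rfl)
    · intro hb
      simp only at hb
      subst hb
      rw [List.map_cons, List.prod_cons, mul_smul]
      cases b' with
      | true =>
        have hne : i ≠ j := by
          intro h
          have := hij h
          simp at this
        exact h6 i j hne _ (ih1 rfl)
      | false => exact h5 i j _ (ih2 rfl)

/-- Table-tennis with a base point. -/
theorem ne_one {ι G α : Type*} [Group G] [MulAction G α] (a : ι → G) (X Y : ι → Set α)
    (v : α) (hv1 : ∀ i, v ∉ X i) (hv2 : ∀ i, v ∉ Y i)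
    (h1 : ∀ i, a i • v ∈ X i) (h2 : ∀ i, (a i)⁻¹ • v ∈ Y i)
    (h3 : ∀ i j, ∀ x ∈ X j, a i • x ∈ X i)
    (h4 : ∀ i j, i ≠ j → ∀ x ∈ Y j, a i • x ∈ X i)
    (h5 : ∀ i j, ∀ x ∈ Y j, (a i)⁻¹ • x ∈ Y i)
    (h6 : ∀ i j, i ≠ j → ∀ x ∈ X j, (a i)⁻¹ • x ∈ Y i) (w : FreeGroup ι) (hw : w ≠ 1) :
    FreeGroup.lift a w ≠ 1 := by
  classical
  intro h
  have hne : w.toWord ≠ [] := by
    rw [Ne, FreeGroup.toWord_eq_nil_iff]; exact hw
  obtain ⟨c, l, hl⟩ := List.exists_cons_of_ne_nil hne
  have hred : FreeGroup.IsReduced (c :: l) := by rw [← hl]; exact FreeGroup.isReduced_toWord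
  have hval : FreeGroup.lift a w = ((c :: l).map (fun x => cond x.2 (a x.1) (a x.1)⁻¹)).prod := by
    conv_lhs => rw [← FreeGroup.mk_toWord (x := w), hl]
    rw [FreeGroup.lift_mk]
  obtain ⟨e1, e2⟩ := aux a X Y v h1 h2 h3 h4 h5 h6 l c hred
  rw [← hval, h, one_smul] at e1 e2
  rcases hc : c.2 with _ | _
  · exact hv2 _ (e2 hc)
  · exact hv1 _ (e1 hc)

end CfsgLib.PP
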