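import Mathlib
import Cfsg.Agent.LibCollect
import Cfsg.Agent.LibCores

/-! S1895: chief factors in rank two, generalities -/

set_option autoImplicit false
set_option maxHeartbeats 1000000

namespace CfsgLib.PRk9

open Subgroup
open scoped commutatorElement

universe u

theorem step {G : Type u} [Group G] [Finite G] {H K N M : Subgroup G} [H.Normal] [K.Normal] [N.Normal] [M.Normal]
    (hKH : K ≤ H) (hchief : ∀ L : Subgroup G, L.Normal → K ≤ L → L ≤ H → L = K ∨ L = H) (hNM : N ≤ M)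
    (hN : H ⊓ N ≤ K) : H ⊓ M ≤ K ∨ K.relIndex H ∣ N.relIndex M := by
  have h1 : (H ⊓ M) ⊔ K ≤ H := sup_le inf_le_left hKH
  rcases hchief ((H ⊓ M) ⊔ K) inferInstance le_sup_right h1 with h | h
  · left
    rw [← h]; exact le_sup_left
  · right
    have h2 : K.relIndex H = K.relIndex (H ⊓ M) := by
      conv_lhs => rw [← h]
      exact relIndex_sup_right _ _
    have h3 : K.relIndex (H ⊓ M) ∣ N.relIndex (H ⊓ M) := by
      rw [← inf_relIndex_right N (H ⊓ M)]
      apply relIndex_dvd_of_le_left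
      exact le_trans (le_inf (inf_le_right.trans inf_le_left) inf_le_left) hN
    have h4 : N.relIndex (H ⊓ M) ∣ N.relIndex M := by
      have h5 := relIndex_dvd_index_of_normal (N.subgroupOf M) ((H ⊓ M).subgroupOf M)
      rwa [relIndex_subgroupOf inf_le_right] at h5
    rw [h2]
    exact h3.trans h4

theorem s1 {p : ℕ} (hp : p.Prime) (hp2 : p ≠ 2) : ∀ (n : ℕ) (P : Type u) [Group P] [Finite P], Nat.card P = n →
    IsPGroup p P → (∀ x : P, x ^ p = 1 → ∀ y, x * y = y * x) →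
    ∀ x y : P, x ^ p ^ 2 = 1 → y ^ p ^ 2 = 1 → (x * y) ^ p = x ^ p * y ^ p := by
  haveI := Fact.mk hp
  intro n
  induction n using Nat.strong_induction_on with
  | _ n ih =>
  intro P _ _ hn hP hcen
  have ha : ∀ x g : P, x ^ p ^ 2 = 1 → ⁅x, g⁆ ^ p = 1 := by
    intro x g hx
    by_cases htop : zpowers x = ⊤
    · have hg : g ∈ zpowers x := by rw [htop]; trivial
      obtain ⟨k, rfl⟩ := mem_zpowers_iff.1 hg
      have h1 : ⁅x, x ^ k⁆ = 1 := by
        rw [commutatorElement_eq_one_iff_mul_comm]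
        exact (Commute.zpow_right (Commute.refl x) k)
      rw [h1, one_pow]
    · obtain ⟨M, hM, hxM⟩ := (eq_top_or_exists_le_coatom (zpowers x)).resolve_left htop
      have hMn : M.Normal := by
        haveI := hP.isNilpotent
        exact NormalizerCondition.normal_of_coatom M Group.normalizerCondition_of_isNilpotent hM
      have hx' : x ∈ M := hxM (mem_zpowers x)
      have hlt : Nat.card M < n := by
        rw [← hn]
        have h1 := Subgroup.card_le_card_group M
        refine lt_of_le_of_ne h1 (fun h => hM.1 ?_)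
        exact Subgroup.eq_top_of_card_eq M h
      have h1 := ih (Nat.card M) hlt M rfl (hP.to_subgroup M) (fun z hz w => Subtype.ext (hcen z (congrArg Subtype.val hz) w))
        ⟨x, hx'⟩ ⟨g * x⁻¹ * g⁻¹, hMn.conj_mem _ (M.inv_mem hx') g⟩ (Subtype.ext hx) (Subtype.ext (by
          change (g * x⁻¹ * g⁻¹) ^ p ^ 2 = 1
          rw [conj_pow, inv_pow, hx]; group))
      have h2 : (x * (g * x⁻¹ * g⁻¹)) ^ p = x ^ p * (g * x⁻¹ * g⁻¹) ^ p := congrArg Subtype.val h1
      have h3 : ⁅x, g⁆ = x * (g * x⁻¹ * g⁻¹) := by rw [commutatorElement_def]; group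
      rw [h3, h2, conj_pow, inv_pow]
      have h4 : x ^ p * g = g * x ^ p := hcen _ (by rw [← pow_mul, ← pow_two, hx]) g
      calc x ^ p * (g * (x ^ p)⁻¹ * g⁻¹) = (x ^ p * g) * (x ^ p)⁻¹ * g⁻¹ := by group
        _ = 1 := by rw [h4]; group
  intro x y hx hy
  have h1 : ⁅y⁻¹, x⁻¹⁆ ^ p = 1 := ha _ _ (by rw [inv_pow, hy, inv_one])
  exact CfsgLib.Collect.pow_prime_of_central hp hp2 (fun g => hcen _ h1 g) h1

/-- the elements of order dividing `p`, when central -/
def Om (p : ℕ) (P : Type u) [Group P] (hcen : ∀ x : P, x ^ p = 1 → ∀ y, x * y = y * x) : Subgroup P where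
  carrier := {x | x ^ p = 1}
  one_mem' := one_pow _
  mul_mem' := fun {a b} ha hb => by
    change (a * b) ^ p = 1
    rw [(show Commute a b from hcen a ha b).mul_pow, show a ^ p = 1 from ha, show b ^ p = 1 from hb, one_mul]
  inv_mem' := fun {a} ha => by
    change (a⁻¹) ^ p = 1
    rw [inv_pow, show a ^ p = 1 from ha, inv_one]

theorem si {p : ℕ} (hp : p.Prime) (hp2 : p ≠ 2) : ∀ (i : ℕ) (P : Type u) [Group P] [Finite P],
    IsPGroup p P → (∀ x : P, x ^ p = 1 → ∀ y, x * y = y * x) →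
    ∀ x y : P, x ^ p ^ (i + 1) = 1 → y ^ p ^ (i + 1) = 1 → (x * y) ^ p ^ i = x ^ p ^ i * y ^ p ^ i := by
  intro i
  induction i with
  | zero => intro P _ _ _ _ x y _ _; simp
  | succ i ih =>
    intro P _ _ hP hcen x y hx hy
    have hs1 := s1 hp hp2 _ P rfl hP hcen
    set Ω := Om p P hcen with hΩ
    haveI hΩn : Ω.Normal := by
      refine ⟨fun z hz g => ?_⟩
      change (g * z * g⁻¹) ^ p = 1
      rw [conj_pow, show z ^ p = 1 from hz]; group
    have hcen' : ∀ x : P ⧸ Ω, x ^ p = 1 → ∀ y, x * y = y * x := by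
      intro a ha b
      obtain ⟨a, rfl⟩ := QuotientGroup.mk'_surjective Ω a
      obtain ⟨b, rfl⟩ := QuotientGroup.mk'_surjective Ω b
      have h1 : a ^ p ∈ Ω := by
        rw [← map_pow] at ha
        exact (QuotientGroup.eq_one_iff _).1 ha
      have h2 : a ^ p ^ 2 = 1 := by
        rw [pow_two, pow_mul]; exact h1
      have h3 : (a * (b * a⁻¹ * b⁻¹)) ^ p = a ^ p * (b * a⁻¹ * b⁻¹) ^ p := hs1 _ _ h2 (by
        rw [conj_pow, inv_pow, h2]; group)
      have h4 : ⁅a, b⁆ ∈ Ω := by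
        change ⁅a, b⁆ ^ p = 1
        have e : ⁅a, b⁆ = a * (b * a⁻¹ * b⁻¹) := by rw [commutatorElement_def]; group
        rw [e, h3, conj_pow, inv_pow]
        have h5 : a ^ p * b = b * a ^ p := hcen _ (by rw [← pow_mul, ← pow_two, h2]) b
        calc a ^ p * (b * (a ^ p)⁻¹ * b⁻¹) = (a ^ p * b) * (a ^ p)⁻¹ * b⁻¹ := by group
          _ = 1 := by rw [h5]; group
      rw [← commutatorElement_eq_one_iff_mul_comm, ← map_commutatorElement]
      exact (QuotientGroup.eq_one_iff _).2 h4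
    have hmem : ∀ z : P, z ^ p ^ (i + 1 + 1) = 1 → (QuotientGroup.mk' Ω z) ^ p ^ (i + 1) = 1 := by
      intro z hz
      rw [← map_pow]
      apply (QuotientGroup.eq_one_iff _).2
      change (z ^ p ^ (i + 1)) ^ p = 1
      rw [← pow_mul, ← pow_succ, hz]
    have h1 := ih (P ⧸ Ω) (hP.to_quotient Ω) hcen' (QuotientGroup.mk' Ω x) (QuotientGroup.mk' Ω y) (hmem x hx) (hmem y hy)
    rw [← map_mul, ← map_pow, ← map_pow, ← map_pow, ← map_mul] at h1
    have h2 : (x ^ p ^ i * y ^ p ^ i)⁻¹ * (x * y) ^ p ^ i ∈ Ω := QuotientGroup.eq.1 h1.symm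
    set w := (x ^ p ^ i * y ^ p ^ i)⁻¹ * (x * y) ^ p ^ i with hw
    have h3 : (x * y) ^ p ^ i = (x ^ p ^ i * y ^ p ^ i) * w := by rw [hw]; group
    have hwp : w ^ p = 1 := h2
    have h4 : (x * y) ^ p ^ (i + 1) = ((x * y) ^ p ^ i) ^ p := by rw [← pow_mul, ← pow_succ]
    have hxx : (x ^ p ^ i) ^ p ^ 2 = 1 := by rw [← pow_mul, ← pow_add]; exact hx
    have hyy : (y ^ p ^ i) ^ p ^ 2 = 1 := by rw [← pow_mul, ← pow_add]; exact hy
    have hcw : Commute (x ^ p ^ i * y ^ p ^ i) w := (show Commute w _ from hcen w hwp _).symm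
    rw [h4, h3, hcw.mul_pow, hwp, mul_one, hs1 _ _ hxx hyy, ← pow_mul, ← pow_mul, ← pow_succ]

/-- the normal series in a `p`-central normal subgroup -/
theorem pcentral_chief {G : Type u} [Group G] [Finite G] {p : ℕ} [hpf : Fact p.Prime] (hp2 : p ≠ 2) (E : Subgroup G)
    [hEn : E.Normal] (hE : IsPGroup p E) (hcen : ∀ x ∈ E, x ^ p = 1 → ∀ y ∈ E, x * y = y * x)
    (A : Subgroup G) (hA : Nat.card A ≤ p ^ 2) (hEA : ∀ x ∈ E, x ^ p = 1 → x ∈ A)
    {H K : Subgroup G} [H.Normal] [K.Normal] (hKH : K ≤ H)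
    (hchief : ∀ L : Subgroup G, L.Normal → K ≤ L → L ≤ H → L = K ∨ L = H) :
    H ⊓ E ≤ K ∨ K.relIndex H ≤ p ^ 2 := by
  have hp := hpf.out
  have hcen' : ∀ x : E, x ^ p = 1 → ∀ y, x * y = y * x := fun x hx y =>
    Subtype.ext (hcen x x.2 (congrArg Subtype.val hx) y y.2)
  have hsi : ∀ (i : ℕ) (x y : G), x ∈ E → y ∈ E → x ^ p ^ (i + 1) = 1 → y ^ p ^ (i + 1) = 1 →
      (x * y) ^ p ^ i = x ^ p ^ i * y ^ p ^ i := by
    intro i x y hx hy hx' hy'
    have := si hp hp2 i E hE hcen' ⟨x, hx⟩ ⟨y, hy⟩ (Subtype.ext hx') (Subtype.ext hy')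
    exact congrArg Subtype.val this
  let T : ℕ → Subgroup G := fun i =>
    { carrier := {x | x ∈ E ∧ x ^ p ^ i = 1}
      one_mem' := ⟨one_mem _, one_pow _⟩
      mul_mem' := by
        rintro a b ⟨ha, ha'⟩ ⟨hb, hb'⟩
        refine ⟨E.mul_mem ha hb, ?_⟩
        cases i with
        | zero =>
          rw [pow_zero, pow_one] at ha' hb' ⊢
          rw [ha', hb', one_mul]
        | succ i =>
          have h1 := hsi i a b ha hb ha' hb'
          have ha1 : (a ^ p ^ i) ^ p = 1 := by rw [← pow_mul, ← pow_succ, ha']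
          have hb1 : (b ^ p ^ i) ^ p = 1 := by rw [← pow_mul, ← pow_succ, hb']
          have hc : Commute (a ^ p ^ i) (b ^ p ^ i) :=
            hcen _ (E.pow_mem ha _) ha1 _ (E.pow_mem hb _)
          rw [pow_succ, pow_mul, h1, hc.mul_pow, ha1, hb1, one_mul]
      inv_mem' := by
        rintro a ⟨ha, ha'⟩
        exact ⟨E.inv_mem ha, by rw [inv_pow, ha', inv_one]⟩ }
  have hT : ∀ i x, x ∈ T i ↔ x ∈ E ∧ x ^ p ^ i = 1 := fun i x => Iff.rfl
  have hTn : ∀ i, (T i).Normal := by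
    intro i
    refine ⟨fun x hx g => ⟨hEn.conj_mem x hx.1 g, ?_⟩⟩
    rw [conj_pow, hx.2]; group
  have hTm : ∀ i, T i ≤ T (i + 1) := fun i x hx => ⟨hx.1, by rw [pow_succ, pow_mul, hx.2, one_pow]⟩
  have hTi : ∀ i, (T i).relIndex (T (i + 1)) ≤ p ^ 2 := by
    intro i
    let F : T (i + 1) →* G :=
      { toFun := fun x => (x : G) ^ p ^ i
        map_one' := one_pow _
        map_mul' := fun x y => hsi i x y x.2.1 y.2.1 x.2.2 y.2.2 }
    have h1 : (T i).subgroupOf (T (i + 1)) = F.ker := by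
      ext x
      rw [mem_subgroupOf, MonoidHom.mem_ker]
      exact ⟨fun h => h.2, fun h => ⟨x.2.1, h⟩⟩
    have h2 : (T i).relIndex (T (i + 1)) = Nat.card F.range := by
      rw [relIndex, h1, index_ker]
    rw [h2]
    refine le_trans (Subgroup.card_le_of_le ?_) hA
    rintro _ ⟨x, rfl⟩
    apply hEA
    · exact E.pow_mem x.2.1 _
    · change ((x : G) ^ p ^ i) ^ p = 1
      rw [← pow_mul, ← pow_succ]; exact x.2.2
  have key : ∀ i, H ⊓ T i ≤ K ∨ K.relIndex H ≤ p ^ 2 := by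
    intro i
    induction i with
    | zero =>
      left
      rintro x ⟨-, hx⟩
      have h1 := hx.2
      rw [pow_zero, pow_one] at h1
      rw [h1]; exact one_mem _
    | succ i ih =>
      rcases ih with ih | ih
      · haveI := hTn i
        haveI := hTn (i + 1)
        rcases step hKH hchief (hTm i) ih with h | h
        · exact Or.inl h
        · right
          refine le_trans (Nat.le_of_dvd (Nat.pos_of_ne_zero ?_) h) (hTi i)
          exact Subgroup.index_ne_zero_of_finite (H := (T i).subgroupOf (T (i + 1)))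
      · exact Or.inr ih
  obtain ⟨m, hm⟩ := IsPGroup.iff_card.1 hE
  rcases key m with h | h
  · left
    rintro x ⟨hxH, hxE⟩
    refine h ⟨hxH, hxE, ?_⟩
    have h1 : (⟨x, hxE⟩ : E) ^ Nat.card E = 1 := pow_card_eq_one'
    rw [hm] at h1
    exact congrArg Subtype.val h1
  · exact Or.inr h

end CfsgLib.PRk9
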