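import Mathlib
import Cfsg.Agent.LibPartH12

/-! uniform partition stabilisers: maximality -/

set_option autoImplicit false

universe u

namespace CfsgLib.PartBH12

open Equiv Equiv.Perm CfsgLib.PartH12
open scoped Pointwise

theorem four_dvd {G : Type*} [Group G] (H : Subgroup G) [Finite H] (s t : G) (hs : s * s = 1)
    (ht : t * t = 1) (hst : s * t = t * s) (h1 : s ≠ 1) (h2 : t ≠ 1) (h3 : s ≠ t)
    (hsH : s ∈ H) (htH : t ∈ H) : 4 ∣ Nat.card H := by
  classical
  have e1 : ∀ x, s * (s * x) = x := fun x => by rw [← mul_assoc, hs, one_mul]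
  have e2 : ∀ x, t * (t * x) = x := fun x => by rw [← mul_assoc, ht, one_mul]
  have e3 : ∀ x, t * (s * x) = s * (t * x) := fun x => by rw [← mul_assoc, ← hst, mul_assoc]
  have e4 : s⁻¹ = s := inv_eq_of_mul_eq_one_left hs
  have e5 : t⁻¹ = t := inv_eq_of_mul_eq_one_left ht
  let V : Subgroup G :=
    { carrier := {1, s, t, s * t}
      one_mem' := by simp
      mul_mem' := by
        intro x y hx hy
        simp only [Set.mem_insert_iff, Set.mem_singleton_iff] at hx hy ⊢
        rcases hx with rfl | rfl | rfl | rfl <;> rcases hy with rfl | rfl | rfl | rfl <;>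
          simp [e1, e2, e3, hs, ht, ← hst, mul_assoc]
      inv_mem' := by
        intro x hx
        simp only [Set.mem_insert_iff, Set.mem_singleton_iff] at hx ⊢
        rcases hx with rfl | rfl | rfl | rfl
        · simp
        · simp [e4]
        · simp [e5]
        · rw [mul_inv_rev, e4, e5, hst]; simp }
  have hV : V ≤ H := by
    intro x hx
    change x ∈ ({1, s, t, s * t} : Set G) at hx
    simp only [Set.mem_insert_iff, Set.mem_singleton_iff] at hx
    rcases hx with rfl | rfl | rfl | rfl
    · exact H.one_mem
    · exact hsH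
    · exact htH
    · exact H.mul_mem hsH htH
  have hcard : Nat.card V = 4 := by
    have h4 : (V : Set G) = (({1, s, t, s * t} : Finset G) : Set G) := by
      change ({1, s, t, s * t} : Set G) = _
      simp
    have h5 : Nat.card V = (V : Set G).ncard := rfl
    rw [h5, h4, Set.ncard_coe_finset]
    have n1 : t ≠ s * t := fun h => h1 (by simpa using h.symm)
    have n2 : s ≠ s * t := fun h => h2 (by simpa using h.symm)
    have n3 : (1 : G) ≠ s * t := fun h => h3 (by
      have : s * (s * t) = s * 1 := by rw [← h]
      rw [e1, mul_one] at this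
      exact this.symm)
    rw [Finset.card_insert_of_notMem, Finset.card_insert_of_notMem, Finset.card_insert_of_notMem,
      Finset.card_singleton]
    · simpa using n1
    · simp only [Finset.mem_insert, Finset.mem_singleton, not_or]
      exact ⟨h3, n2⟩
    · simp only [Finset.mem_insert, Finset.mem_singleton, not_or]
      exact ⟨Ne.symm h1, Ne.symm h2, n3⟩
  rw [← hcard]
  exact Subgroup.card_dvd_of_le hV

theorem core_dvd {G : Type*} [Group G] [Finite G] (H : Subgroup G) :
    H.normalCore.index ∣ (H.index).factorial := by
  have h1 : H.normalCore.index = Nat.card (MulAction.toPermHom G (G ⧸ H)).range := by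
    rw [Subgroup.normalCore_eq_ker, Subgroup.index_ker]
  rw [h1]
  have h2 : Nat.card (Equiv.Perm (G ⧸ H)) = (H.index).factorial := by
    rw [Nat.card_perm]; rfl
  rw [← h2]
  exact Subgroup.card_subgroup_dvd_card _

/-- a proper subgroup of a simple group of index `k` : order divides `k!` -/
theorem simple_bound {G : Type*} [Group G] [Finite G] [IsSimpleGroup G] (H : Subgroup G)
    (h : H ≠ ⊤) : Nat.card G ∣ (H.index).factorial := by
  have h1 := core_dvd H
  have h2 : H.normalCore = ⊥ := by
    rcases (IsSimpleGroup.eq_bot_or_eq_top_of_normal H.normalCore inferInstance) with h3 | h3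
    · exact h3
    · exact absurd (top_le_iff.mp (h3 ▸ Subgroup.normalCore_le H)) h
  rw [h2, Subgroup.index_bot] at h1
  exact h1

variable {Ω : Type u} [Fintype Ω] [DecidableEq Ω] {b : ℕ}

theorem fibre_two (f : Ω → Fin b) (hf : ∀ i : Fin b, Nat.card {x : Ω // f x = i} = 2)
    {y y' p : Ω} (hy : f y = f p) (hy' : f y' = f p) (hyy : y ≠ y') : p = y ∨ p = y' := by
  have h1 := hf (f p)
  obtain ⟨q, -, hq⟩ := (Nat.card_eq_two_iff' (⟨p, rfl⟩ : {x : Ω // f x = f p})).mp h1
  by_contra hcon
  push Not at hcon
  have h2 := hq ⟨y, hy⟩ (fun h => hcon.1 (congrArg Subtype.val h).symm)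
  have h3 := hq ⟨y', hy'⟩ (fun h => hcon.2 (congrArg Subtype.val h).symm)
  exact hyy (congrArg Subtype.val (h2.trans h3.symm))

section
variable (f : Ω → Fin b) {a : ℕ} (hf : ∀ i : Fin b, Nat.card {x : Ω // f x = i} = a)
include hf

theorem card_om : Nat.card Ω = b * a := by
  obtain ⟨Φ, -⟩ := exists_coord f hf
  rw [Nat.card_congr Φ, Nat.card_prod, Nat.card_fin, Nat.card_fin]

theorem ptW (ha : 2 ≤ a) (hb : 2 ≤ b) : MulAction.IsPretransitive (Wp f) Ω :=
  ⟨fun x y => by
    obtain ⟨w, hw, hwx⟩ := pretrans f hf ha hb x y
    exact ⟨⟨w, hw⟩, hwx⟩⟩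

theorem dvdW (ha : 2 ≤ a) (hb : 2 ≤ b) (x : Ω) :
    b * a * Nat.card (MulAction.stabilizer (Wp f) x) = Nat.card (Wp f) := by
  haveI := ptW f hf ha hb
  have h1 := MulAction.index_stabilizer_of_transitive (Wp f) x
  rw [card_om f hf] at h1
  rw [← h1]
  exact Subgroup.index_mul_card _

theorem big (ha : 2 ≤ a) (hb : 2 ≤ b) (h8 : b * a ≠ 8) (M : Subgroup (Perm Ω)) (hWM : Wp f ≤ M)
    (hMA : M ≤ alternatingGroup Ω) (hM : ¬ M ≤ G0 f) : M = alternatingGroup Ω := by
  apply le_antisymm hMA
  haveI : Nontrivial Ω := by
    rw [← Finite.one_lt_card_iff_nontrivial, card_om f hf]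
    nlinarith
  have hcardA := two_mul_nat_card_alternatingGroup (α := Ω)
  rw [Nat.card_perm, card_om f hf] at hcardA
  have hne : Wp f ≠ M := fun h => hM (by rw [← h]; exact inf_le_left)
  have hd1 : Nat.card (Wp f) ∣ Nat.card M := Subgroup.card_dvd_of_le hWM
  have hd2 : Nat.card M ∣ Nat.card (alternatingGroup Ω) := Subgroup.card_dvd_of_le hMA
  have hlt : Nat.card (Wp f) ≠ Nat.card M := fun h =>
    hne (Subgroup.eq_of_le_of_card_ge hWM h.ge)
  by_cases hcase : 3 ≤ a ∨ 5 ≤ b
  · obtain ⟨t, htM, ht⟩ := exists_three f hf ha hb hcase M hWM hM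
    have hp := prim f hf ha hb (by omega) M hWM hM
    exact alternatingGroup_le_of_isPreprimitive_of_isThreeCycle_mem hp ht htM
  · have ha2 : a = 2 := by omega
    subst ha2
    obtain ⟨i, -⟩ := exists_block (b := b) ∅ (by simp; omega)
    obtain ⟨x, hx, -⟩ := exists_other f hf i ∅ (by simp)
    have hd := dvdW f hf ha hb x
    have hb23 : b = 2 ∨ b = 3 := by omega
    rcases hb23 with rfl | rfl
    · -- degree 4
      have h12 : Nat.card (alternatingGroup Ω) = 12 := by
        rw [show (2 * 2 : ℕ).factorial = 24 by decide] at hcardA; omega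
      rw [h12] at hd2
      have h3 : Nat.card M = 12 := by
        obtain ⟨k, hk⟩ := hd1
        have hMle : Nat.card M ≤ 12 := Nat.le_of_dvd (by norm_num) hd2
        have hMpos : 0 < Nat.card M := Nat.card_pos
        have hWpos : 0 < Nat.card (Wp f) := Nat.card_pos
        have hspos : 0 < Nat.card (MulAction.stabilizer (Wp f) x) := Nat.card_pos
        have hk2 : 2 ≤ k := by
          rcases k with _ | _ | k
          · omega
          · exact absurd (by rw [hk]; ring) hlt
          · omega
        have h8' : 8 ≤ Nat.card M := by rw [hk]; nlinarith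
        interval_cases h : Nat.card M <;> omega
      exact (Subgroup.eq_of_le_of_card_ge hMA (by rw [h12, h3])).ge
    · -- degree 6
      have h360 : Nat.card (alternatingGroup Ω) = 360 := by
        rw [show (3 * 2 : ℕ).factorial = 720 by decide] at hcardA; omega
      haveI : IsSimpleGroup (alternatingGroup Ω) :=
        alternatingGroup.isSimpleGroup (by rw [card_om f hf]; norm_num)
      -- 4 divides the stabiliser
      have h4 : 4 ∣ Nat.card (MulAction.stabilizer (Wp f) x) := by
        obtain ⟨j, hj⟩ := exists_block (b := 3) {f x} (by simp)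
        obtain ⟨k, hk⟩ := exists_block (b := 3) {f x, j}
          (lt_of_le_of_lt (Finset.card_le_two) (by norm_num))
        simp only [Finset.mem_insert, Finset.mem_singleton, not_or] at hj hk
        obtain ⟨y, hy, -⟩ := exists_other f hf j ∅ (by simp)
        obtain ⟨y', hy', hyy⟩ := exists_other f hf j {y} (by simp)
        obtain ⟨z, hz, -⟩ := exists_other f hf k ∅ (by simp)
        obtain ⟨z', hz', hzz⟩ := exists_other f hf k {z} (by simp)
        rw [Finset.mem_singleton] at hyy hzz
        have fj : ∀ p, f p = j → x ≠ p := fun p hp h => hj (by rw [← hp, h])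
        have fk : ∀ p, f p = k → x ≠ p := fun p hp h => hk.1 (by rw [← hp, h])
        have fjk : ∀ p q, f p = j → f q = k → p ≠ q := fun p q hp hq h => hk.2 (by
          rw [← hq, ← h, hp])
        have hs : swap y y' * swap z z' ∈ Wp f :=
          dswap_mem f (by rw [hy, hy']) (by rw [hz, hz']) (Ne.symm hyy) (Ne.symm hzz)
        have n1 : y ≠ z := fjk y z hy hz
        have n2 : y ≠ z' := fjk y z' hy hz'
        have n3 : y' ≠ z := fjk y' z hy' hz
        have n4 : y' ≠ z' := fjk y' z' hy' hz'
        have n5 : y ≠ y' := Ne.symm hyy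
        have n6 : z ≠ z' := Ne.symm hzz
        have act : ∀ p, f ((swap y z * swap y' z') p) = swap j k (f p) := by
          intro p
          rw [Perm.mul_apply]
          by_cases p1 : p = y
          · rw [p1, swap_apply_of_ne_of_ne n5 n2, swap_apply_left, hy, hz, swap_apply_left]
          by_cases p2 : p = y'
          · rw [p2, swap_apply_left, swap_apply_of_ne_of_ne n2.symm n6.symm, hy', hz',
              swap_apply_left]
          by_cases p3 : p = z
          · rw [p3, swap_apply_of_ne_of_ne n3.symm n6, swap_apply_right, hy, hz, swap_apply_right]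
          by_cases p4 : p = z'
          · rw [p4, swap_apply_right, swap_apply_of_ne_of_ne n5.symm n3, hy', hz',
              swap_apply_right]
          rw [swap_apply_of_ne_of_ne p2 p4, swap_apply_of_ne_of_ne p1 p3,
            swap_apply_of_ne_of_ne]
          · intro h
            rcases fibre_two f hf (hy.trans h.symm) (hy'.trans h.symm) n5 with h5 | h5
            · exact p1 h5
            · exact p2 h5
          · intro h
            rcases fibre_two f hf (hz.trans h.symm) (hz'.trans h.symm) n6 with h5 | h5
            · exact p3 h5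
            · exact p4 h5
        have ht : swap y z * swap y' z' ∈ Wp f := by
          refine ⟨fun p q => ?_, ?_⟩
          · rw [act, act]
            exact ((swap j k).injective.eq_iff).symm
          · change swap y z * swap y' z' ∈ alternatingGroup Ω
            rw [mem_alternatingGroup, map_mul, sign_swap n1, sign_swap n4]
            norm_num
        have hcomm : (swap y y' * swap z z') * (swap y z * swap y' z') =
            (swap y z * swap y' z') * (swap y y' * swap z z') := by
          have e1 := mul_swap_eq_swap_mul (swap y y' * swap z z') y z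
          have e2 := mul_swap_eq_swap_mul (swap y y' * swap z z') y' z'
          rw [Perm.mul_apply, Perm.mul_apply, swap_apply_of_ne_of_ne n1 n2, swap_apply_left,
            swap_apply_left, swap_apply_of_ne_of_ne n2.symm n4.symm] at e1
          rw [Perm.mul_apply, Perm.mul_apply, swap_apply_of_ne_of_ne n3 n4, swap_apply_right,
            swap_apply_right, swap_apply_of_ne_of_ne n1.symm n3.symm] at e2
          have e3 : swap y' z' * swap y z = swap y z * swap y' z' := by
            have := mul_swap_eq_swap_mul (swap y' z') y z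
            rwa [swap_apply_of_ne_of_ne n5 n2, swap_apply_of_ne_of_ne n3.symm n6] at this
          calc _ = ((swap y y' * swap z z') * swap y z) * swap y' z' := by group
            _ = swap y' z' * ((swap y y' * swap z z') * swap y' z') := by rw [e1]; group
            _ = swap y' z' * swap y z * (swap y y' * swap z z') := by rw [e2]; group
            _ = _ := by rw [e3]
        have hss : ∀ p q r w : Ω, p ≠ r → p ≠ w → q ≠ r → q ≠ w →
            (swap p q * swap r w) * (swap p q * swap r w) = 1 := by
          intro p q r w h1 h2 h3 h4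
          have := mul_swap_eq_swap_mul (swap r w) p q
          rw [swap_apply_of_ne_of_ne h1 h2, swap_apply_of_ne_of_ne h3 h4] at this
          calc _ = swap p q * (swap r w * swap p q) * swap r w := by group
            _ = (swap p q * swap p q) * (swap r w * swap r w) := by rw [this]; group
            _ = 1 := by rw [swap_mul_self, swap_mul_self, one_mul]
        have hfix1 : (swap y y' * swap z z') x = x := by
          rw [Perm.mul_apply, swap_apply_of_ne_of_ne (fk z hz) (fk z' hz'),
            swap_apply_of_ne_of_ne (fj y hy) (fj y' hy')]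
        have hfix2 : (swap y z * swap y' z') x = x := by
          rw [Perm.mul_apply, swap_apply_of_ne_of_ne (fj y' hy') (fk z' hz'),
            swap_apply_of_ne_of_ne (fj y hy) (fk z hz)]
        have a1 : (swap y y' * swap z z') y = y' := by
          rw [Perm.mul_apply, swap_apply_of_ne_of_ne n1 n2, swap_apply_left]
        have a2 : (swap y z * swap y' z') y = z := by
          rw [Perm.mul_apply, swap_apply_of_ne_of_ne n5 n2, swap_apply_left]
        refine four_dvd (MulAction.stabilizer (Wp f) x) ⟨_, hs⟩ ⟨_, ht⟩ ?_ ?_ ?_ ?_ ?_ ?_ ?_ ?_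
        · exact Subtype.ext (hss _ _ _ _ n1 n2 n3 n4)
        · exact Subtype.ext (hss _ _ _ _ n5 n2 n3.symm n6)
        · exact Subtype.ext hcomm
        · intro h
          have := congrArg (fun g : Wp f => (g : Perm Ω) y) h
          simp only [OneMemClass.coe_one, Perm.one_apply] at this
          rw [a1] at this
          exact hyy this
        · intro h
          have := congrArg (fun g : Wp f => (g : Perm Ω) y) h
          simp only [OneMemClass.coe_one, Perm.one_apply] at this
          rw [a2] at this
          exact n1 this.symm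
        · intro h
          have := congrArg (fun g : Wp f => (g : Perm Ω) y) h
          simp only at this
          rw [a1, a2] at this
          exact n3 this
        · exact hfix1
        · exact hfix2
      have h24 : 24 ∣ Nat.card (Wp f) := by
        obtain ⟨c, hc⟩ := h4
        rw [← hd, hc]
        exact ⟨c, by ring⟩
      by_contra hcon
      have hne' : M.subgroupOf (alternatingGroup Ω) ≠ ⊤ := fun h =>
        hcon (Subgroup.subgroupOf_eq_top.mp h)
      have hb1 := simple_bound _ hne'
      have hb2 := (M.subgroupOf (alternatingGroup Ω)).index_mul_card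
      rw [h360] at hb1 hb2
      have hb3 : Nat.card (M.subgroupOf (alternatingGroup Ω)) = Nat.card M :=
        Nat.card_congr (Subgroup.subgroupOfEquivOfLe hMA).toEquiv
      rw [hb3] at hb2
      obtain ⟨k, hk⟩ := hd1
      obtain ⟨m, hm⟩ := h24
      have hMpos : 0 < Nat.card M := Nat.card_pos
      have hWpos : 0 < Nat.card (Wp f) := Nat.card_pos
      have hk2 : 2 ≤ k := by
        rcases k with _ | _ | k
        · omega
        · exact absurd (by rw [hk]; ring) hlt
        · omega
      have hm1 : 1 ≤ m := by omega
      have h48 : 48 ≤ Nat.card M := by rw [hk, hm]; nlinarith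
      generalize (M.subgroupOf (alternatingGroup Ω)).index = r at hb1 hb2
      have hr : r ≤ 7 := by
        by_contra hr
        push Not at hr
        nlinarith
      have hrk : r * (m * k) = 15 := by
        have : r * (24 * m * k) = 360 := by rw [← hb2, hk, hm]
        nlinarith
      have hr15 : r ∣ 15 := ⟨_, hrk.symm⟩
      interval_cases r
      · omega
      · exact absurd hb1 (by decide)
      · exact absurd hr15 (by decide)
      · exact absurd hb1 (by decide)
      · exact absurd hr15 (by decide)
      · exact absurd hb1 (by decide)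
      · exact absurd hr15 (by decide)
      · exact absurd hr15 (by decide)

theorem proper (ha : 2 ≤ a) (hb : 2 ≤ b) : ¬ alternatingGroup Ω ≤ G0 f := by
  intro h
  obtain ⟨i, -⟩ := exists_block (b := b) ∅ (by simp; omega)
  obtain ⟨x, hx, -⟩ := exists_other f hf i ∅ (by simp; omega)
  obtain ⟨y, hy, hyx⟩ := exists_other f hf i {x} (by simp; omega)
  rw [Finset.mem_singleton] at hyx
  obtain ⟨j, hj⟩ := exists_block (b := b) {i} (by simp; omega)
  rw [Finset.mem_singleton] at hj
  obtain ⟨z, hz, -⟩ := exists_other f hf j ∅ (by simp; omega)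
  have hzx : x ≠ z := fun h => hj (by rw [← hz, ← h, hx])
  have hzy : y ≠ z := fun h => hj (by rw [← hz, ← h, hy])
  have h1 : swap x y * swap x z ∈ alternatingGroup Ω := by
    rw [mem_alternatingGroup, map_mul, sign_swap (Ne.symm hyx), sign_swap hzx]
    norm_num
  have h2 := h h1 x y
  rw [Perm.mul_apply, Perm.mul_apply, swap_apply_left, swap_apply_of_ne_of_ne hzx.symm hzy.symm,
    swap_apply_of_ne_of_ne hyx hzy, swap_apply_right, hx, hy, hz] at h2
  exact hj (h2.mp rfl)

theorem coatom (ha : 2 ≤ a) (hb : 2 ≤ b) (h8 : b * a ≠ 8) :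
    IsCoatom ((G0 f ⊓ alternatingGroup Ω).subgroupOf (alternatingGroup Ω)) := by
  refine ⟨fun h => proper f hf ha hb ?_, ?_⟩
  · rw [Subgroup.subgroupOf_eq_top] at h
    exact h.trans inf_le_left
  · intro N hN
    have h1 := big f hf ha hb h8 (N.map (alternatingGroup Ω).subtype) (by
      intro w hw
      have : (⟨w, hw.2⟩ : alternatingGroup Ω) ∈ N := hN.le (by
        rw [Subgroup.mem_subgroupOf]; exact hw)
      exact ⟨_, this, rfl⟩) (by
      rintro _ ⟨w, hw, rfl⟩
      exact w.2) (by
      intro hcon
      apply hN.not_ge
      intro w hw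
      rw [Subgroup.mem_subgroupOf]
      exact ⟨hcon ⟨w, hw, rfl⟩, w.2⟩)
    rw [eq_top_iff]
    intro w _
    have h2 : (w : Perm Ω) ∈ N.map (alternatingGroup Ω).subtype := by rw [h1]; exact w.2
    obtain ⟨v, hv, hvw⟩ := h2
    rwa [← Subtype.ext hvw]

end

end CfsgLib.PartBH12
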