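import Mathlib

/-! counting quadratic forms in sets stable under the general linear group (helper26) -/
set_option autoImplicit false
set_option linter.unusedSectionVars false

namespace CfsgLib.WtQ

open Matrix

variable {l : Type} [Fintype l] [DecidableEq l] {F : Type*} [Field F]

/-- the polar form -/
def pol (f : (l → F) → F) (x y : l → F) : F := f (x + y) - f x - f y

structure QF (f : (l → F) → F) : Prop where
  smul : ∀ (a : F) x, f (a • x) = a ^ 2 * f x
  add : ∀ x y z, pol f x (y + z) = pol f x y + pol f x z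
  psm : ∀ (a : F) x y, pol f x (a • y) = a * pol f x y

theorem pol_comm (f : (l → F) → F) (x y : l → F) : pol f x y = pol f y x := by
  unfold pol
  rw [add_comm]; ring

theorem QF.zero {f : (l → F) → F} (hf : QF f) : f 0 = 0 := by
  have := hf.smul 0 0
  simpa using this

theorem QF.map_add {f : (l → F) → F} (x y : l → F) : f (x + y) = f x + f y + pol f x y := by
  unfold pol; ring

theorem QF.pol_self {f : (l → F) → F} (hf : QF f) (x : l → F) : pol f x x = 2 * f x := by
  unfold pol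
  rw [← two_smul F x, hf.smul]; ring

theorem QF.add_left {f : (l → F) → F} (hf : QF f) (x y z : l → F) : pol f (x + y) z = pol f x z + pol f y z := by
  rw [pol_comm, hf.add, pol_comm f z x, pol_comm f z y]

theorem QF.psm_left {f : (l → F) → F} (hf : QF f) (a : F) (x z : l → F) : pol f (a • x) z = a * pol f x z := by
  rw [pol_comm, hf.psm, pol_comm f z x]

theorem QF.comp {f : (l → F) → F} (hf : QF f) (A : Matrix l l F) : QF (fun x => f (A *ᵥ x)) := by
  have h : ∀ x y, pol (fun x => f (A *ᵥ x)) x y = pol f (A *ᵥ x) (A *ᵥ y) := by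
    intro x y
    unfold pol
    simp only [mulVec_add]
  refine ⟨fun a x => ?_, fun x y z => ?_, fun a x y => ?_⟩
  · simp only [mulVec_smul, hf.smul]
  · rw [h, h, h, mulVec_add, hf.add]
  · rw [h, h, mulVec_smul, hf.psm]

theorem pol_comp (f : (l → F) → F) (A : Matrix l l F) (x y : l → F) :
    pol (fun x => f (A *ᵥ x)) x y = pol f (A *ᵥ x) (A *ᵥ y) := by
  unfold pol
  simp only [mulVec_add]

/-- the functional attached to the polar form -/
theorem QF.exists_vec {f : (l → F) → F} (hf : QF f) (x : l → F) : ∃ b : l → F, ∀ y, pol f x y = b ⬝ᵥ y := by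
  refine ⟨fun i => pol f x (Pi.single i 1), fun y => ?_⟩
  let φ : (l → F) →ₗ[F] F :=
    { toFun := fun y => pol f x y
      map_add' := fun y z => hf.add x y z
      map_smul' := fun a y => hf.psm a x y }
  have h1 : φ y = ∑ i, y i • φ (Pi.single i 1) := by
    conv_lhs => rw [← Finset.univ_sum_single y]
    rw [map_sum]
    refine Finset.sum_congr rfl fun i _ => ?_
    rw [← map_smul]
    congr 1
    ext k
    by_cases h : k = i
    · subst h; simp
    · simp [h]
  change φ y = _
  rw [h1, dotProduct]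
  exact Finset.sum_congr rfl fun i _ => mul_comm _ _

theorem det_T (a u : l → F) : (1 + vecMulVec u a : Matrix l l F).det = 1 + a ⬝ᵥ u := by
  rw [vecMulVec_eq Unit, det_one_add_replicateCol_mul_replicateRow]

theorem T_mulVec (a u z : l → F) : (1 + vecMulVec u a : Matrix l l F) *ᵥ z = z + (a ⬝ᵥ z) • u := by
  rw [add_mulVec, one_mulVec, vecMulVec_mulVec]
  congr 1
  ext i
  simp [mul_comm]

/-- transvections and dilatations -/
theorem exists_T (a u : l → F) (h : 1 + a ⬝ᵥ u ≠ 0) : ∃ A : GL l F, ∀ z, (A : Matrix l l F) *ᵥ z = z + (a ⬝ᵥ z) • u :=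
  ⟨Matrix.GeneralLinearGroup.mkOfDetNeZero (1 + vecMulVec u a) (by rw [det_T]; exact h), fun z => T_mulVec a u z⟩

theorem exists_dual {x u : l → F} (hx : x ≠ 0) (hu : u ≠ 0) : ∃ a : l → F, a ⬝ᵥ x = 1 ∧ a ⬝ᵥ u ≠ 0 := by
  obtain ⟨i, hi⟩ := Function.ne_iff.mp hx
  simp only [Pi.zero_apply] at hi
  by_cases hui : u i = 0
  · obtain ⟨k, hk⟩ := Function.ne_iff.mp hu
    simp only [Pi.zero_apply] at hk
    by_cases hxk : x k = 0
    · refine ⟨Pi.single i (x i)⁻¹ + Pi.single k 1, ?_, ?_⟩
      · rw [add_dotProduct, single_dotProduct, single_dotProduct, inv_mul_cancel₀ hi, hxk, mul_zero, add_zero]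
      · rw [add_dotProduct, single_dotProduct, single_dotProduct, hui, mul_zero, zero_add, one_mul]
        exact hk
    · refine ⟨Pi.single k (x k)⁻¹, ?_, ?_⟩
      · rw [single_dotProduct, inv_mul_cancel₀ hxk]
      · rw [single_dotProduct]
        exact mul_ne_zero (inv_ne_zero hxk) hk
  · refine ⟨Pi.single i (x i)⁻¹, ?_, ?_⟩
    · rw [single_dotProduct, inv_mul_cancel₀ hi]
    · rw [single_dotProduct]
      exact mul_ne_zero (inv_ne_zero hi) hui

theorem exists_move {x u : l → F} (hx : x ≠ 0) (hu : u ≠ 0) : ∃ A : GL l F, (A : Matrix l l F) *ᵥ x = u := by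
  obtain ⟨a, ha1, ha2⟩ := exists_dual hx hu
  obtain ⟨A, hA⟩ := exists_T a (u - x) (by rw [dotProduct_sub, ha1]; simpa using ha2)
  refine ⟨A, ?_⟩
  rw [hA, ha1, one_smul, add_sub_cancel]

/-- two nonzero functionals -/
theorem exists_common {b b' : l → F} (hb : b ≠ 0) (hb' : b' ≠ 0) : ∃ y : l → F, b ⬝ᵥ y ≠ 0 ∧ b' ⬝ᵥ y ≠ 0 := by
  obtain ⟨a, h1, h2⟩ := exists_dual hb hb'
  exact ⟨a, by rw [dotProduct_comm, h1]; exact one_ne_zero, by rw [dotProduct_comm]; exact h2⟩

theorem exists_corad {x b b' : l → F} (hb : b ≠ 0) (hb' : b' ≠ 0) (h : b ⬝ᵥ x = 0) (h' : b' ⬝ᵥ x = 0) :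
    ∃ A : GL l F, (A : Matrix l l F) *ᵥ x = x ∧ ∀ z, b ⬝ᵥ ((A : Matrix l l F) *ᵥ z) = b' ⬝ᵥ z := by
  obtain ⟨y, hy, hy'⟩ := exists_common hb hb'
  obtain ⟨A, hA⟩ := exists_T ((b ⬝ᵥ y)⁻¹ • (b' - b)) y (by
    rw [smul_dotProduct, sub_dotProduct, smul_eq_mul, mul_sub, inv_mul_cancel₀ hy]
    simpa using mul_ne_zero (inv_ne_zero hy) hy')
  refine ⟨A, ?_, fun z => ?_⟩
  · rw [hA, smul_dotProduct, sub_dotProduct, h, h', sub_zero, smul_zero, zero_smul, add_zero]
  · rw [hA, dotProduct_add, dotProduct_smul, smul_dotProduct, sub_dotProduct, smul_eq_mul, smul_eq_mul]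
    field_simp
    ring

theorem exists_scale {x : l → F} (hx : x ≠ 0) {c : F} (hc : c ≠ 0) :
    ∃ (A : GL l F) (a : l → F), ∀ z, (A : Matrix l l F) *ᵥ z = z + (a ⬝ᵥ z) • ((c - 1) • x) ∧ a ⬝ᵥ x = 1 := by
  obtain ⟨a, ha, -⟩ := exists_dual hx hx
  obtain ⟨A, hA⟩ := exists_T a ((c - 1) • x) (by rw [dotProduct_smul, ha]; simpa using hc)
  exact ⟨A, a, fun z => ⟨hA z, ha⟩⟩

section count

variable [Fintype F] [DecidableEq F]

/-- the size of a hyperplane -/
theorem card_hyper {x : l → F} (hx : x ≠ 0) :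
    (Finset.univ.filter fun a : l → F => a ⬝ᵥ x = 0).card * Fintype.card F = Fintype.card F ^ Fintype.card l := by
  classical
  obtain ⟨y, hy, -⟩ := exists_dual hx hx
  -- bijection with F
  rw [← Fintype.card_fun (α := l) (β := F)]
  rw [← Finset.card_univ (α := F), ← Finset.card_product, ← Finset.card_univ (α := l → F)]
  refine Finset.card_bij' (fun p _ => p.1 + p.2 • y) (fun a _ => (a - (a ⬝ᵥ x) • y, a ⬝ᵥ x)) ?_ ?_ ?_ ?_
  · intro p _; exact Finset.mem_univ _
  · intro a _
    simp only [Finset.mem_product, Finset.mem_filter, Finset.mem_univ, true_and, and_true]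
    rw [sub_dotProduct, smul_dotProduct, hy]; simp
  · rintro ⟨a, c⟩ h
    simp only [Finset.mem_product, Finset.mem_filter, Finset.mem_univ, true_and, and_true] at h
    simp only [add_dotProduct, smul_dotProduct, h, hy]
    simp
  · intro a _
    simp

theorem card_codim_two (b b' : l → F) :
    Fintype.card F ^ Fintype.card l ≤ (Finset.univ.filter fun z : l → F => b ⬝ᵥ z = 0 ∧ b' ⬝ᵥ z = 0).card * Fintype.card F ^ 2 := by
  classical
  rw [← Fintype.card_fun (α := l) (β := F), ← Finset.card_univ (α := l → F), mul_comm]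
  have hcard : (Fintype.card F) ^ 2 = (Finset.univ : Finset (F × F)).card := by
    rw [Finset.card_univ, Fintype.card_prod, sq]
  rw [hcard]
  -- fibres of the map to F × F
  rw [Finset.card_eq_sum_card_fiberwise (f := fun z : l → F => (b ⬝ᵥ z, b' ⬝ᵥ z)) (t := Finset.univ)
    (fun _ _ => Finset.mem_univ _), ← smul_eq_mul]
  refine Finset.sum_le_card_nsmul _ _ _ fun p _ => ?_
  by_cases hne : (Finset.univ.filter fun z : l → F => (b ⬝ᵥ z, b' ⬝ᵥ z) = p).Nonempty
  · obtain ⟨z₀, hz₀⟩ := hne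
    simp only [Finset.mem_filter, Finset.mem_univ, true_and] at hz₀
    refine Finset.card_le_card_of_injOn (fun z => z - z₀) ?_ (fun _ _ _ _ h => sub_left_injective h)
    intro z hz
    simp only [Finset.coe_filter, Finset.mem_univ, true_and, Set.mem_setOf_eq] at hz ⊢
    rw [← hz₀] at hz
    have h1 := (Prod.ext_iff.mp hz).1
    have h2 := (Prod.ext_iff.mp hz).2
    simp only at h1 h2
    rw [dotProduct_sub, dotProduct_sub, h1, h2, sub_self, sub_self]
    exact ⟨rfl, rfl⟩
  · rw [Finset.not_nonempty_iff_eq_empty] at hne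
    rw [hne, Finset.card_empty]
    exact Nat.zero_le _

end count

end CfsgLib.WtQ
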