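import Cfsg.Agent.LibWt1
import Cfsg.Agent.LibWt2

/-! transvections of `SL` and vectors with prescribed pairings (helper26) -/
set_option autoImplicit false
set_option linter.unusedSectionVars false

namespace CfsgLib.SLw

open Matrix Module CfsgLib.Wt CfsgLib.WtQ

variable {ι : Type} [Fintype ι] [DecidableEq ι] {F : Type*} [Field F]

/-- separate a vector from a subspace -/
theorem exists_vec (W : Submodule F (ι → F)) {b : ι → F} (hb : b ∉ W) :
    ∃ u : ι → F, (∀ w ∈ W, w ⬝ᵥ u = 0) ∧ b ⬝ᵥ u = 1 := by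
  obtain ⟨φ, hφb, hφW⟩ := Submodule.exists_le_ker_of_notMem hb
  have key : ∀ x : ι → F, φ x = x ⬝ᵥ (fun i => φ (Pi.single i 1)) := by
    intro x
    conv_lhs => rw [show x = ∑ i, x i • (Pi.single i (1 : F) : ι → F) by
      funext j
      rw [Finset.sum_apply, Finset.sum_eq_single j]
      · simp
      · intro i _ hi
        rw [Pi.smul_apply, Pi.single_eq_of_ne (Ne.symm hi), smul_zero]
      · intro h; exact absurd (Finset.mem_univ _) h]
    rw [map_sum, dotProduct]
    refine Finset.sum_congr rfl fun i _ => ?_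
    rw [map_smul, smul_eq_mul]
  refine ⟨(φ b)⁻¹ • fun i => φ (Pi.single i 1), fun w hw => ?_, ?_⟩
  · rw [dotProduct_smul, ← key, LinearMap.mem_ker.mp (hφW hw), smul_zero]
  · rw [dotProduct_smul, ← key, smul_eq_mul, inv_mul_cancel₀ hφb]

/-- a second vector killed by a small space of functionals -/
theorem exists_kill (W : Submodule F (ι → F)) (hW : finrank F W + 1 < Fintype.card ι) (a : ι → F) :
    ∃ a' : ι → F, a' ∉ Submodule.span F {a} ∧ ∀ w ∈ W, w ⬝ᵥ a' = 0 := by
  by_contra hcon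
  push Not at hcon
  -- the functionals killing a are in W
  let φ : (ι → F) →ₗ[F] F :=
    { toFun := fun b => b ⬝ᵥ a
      map_add' := fun x y => add_dotProduct x y a
      map_smul' := fun c x => smul_dotProduct c x a }
  have h1 : LinearMap.ker φ ≤ W := by
    intro b hb
    by_contra hbW
    obtain ⟨u, hu1, hu2⟩ := exists_vec W hbW
    have h3 : u ∈ Submodule.span F {a} := by
      by_contra hu
      obtain ⟨w, hw, hw0⟩ := hcon u hu
      exact hw0 (hu1 w hw)
    obtain ⟨c, rfl⟩ := Submodule.mem_span_singleton.mp h3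
    have h4 : b ⬝ᵥ a = 0 := hb
    rw [dotProduct_smul, h4, smul_zero] at hu2
    exact zero_ne_one hu2
  have h2 := LinearMap.finrank_range_add_finrank_ker φ
  have h3 : finrank F (LinearMap.range φ) ≤ 1 := by
    have := Submodule.finrank_le (LinearMap.range φ)
    rwa [Module.finrank_self] at this
  have h4 := Submodule.finrank_mono h1
  rw [Module.finrank_fintype_fun_eq_card] at h2
  omega

theorem finrank_span_pair_le (x y : ι → F) : finrank F (Submodule.span F {x, y}) ≤ 2 := by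
  classical
  have h := finrank_span_finset_le_card (R := F) ({x, y} : Finset (ι → F))
  rw [Finset.coe_pair] at h
  exact h.trans Finset.card_le_two

theorem finrank_span_triple_le (x y z : ι → F) : finrank F (Submodule.span F {x, y, z}) ≤ 3 := by
  classical
  have h := finrank_span_finset_le_card (R := F) ({x, y, z} : Finset (ι → F))
  rw [Finset.coe_insert, Finset.coe_pair] at h
  exact h.trans Finset.card_le_three

/-- transvections -/
def tv (x f : ι → F) (h : f ⬝ᵥ x = 0) : SpecialLinearGroup ι F :=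
  ⟨1 + vecMulVec x f, by rw [det_T, h, add_zero]⟩

theorem tv_val (x f : ι → F) (h : f ⬝ᵥ x = 0) : (tv x f h : Matrix ι ι F) = 1 + vecMulVec x f := rfl

theorem vecMul_vecMulVec' (w x f : ι → F) : w ᵥ* vecMulVec x f = (w ⬝ᵥ x) • f := by
  rw [vecMul_vecMulVec]

theorem vecMul_tv (w x f : ι → F) (h : f ⬝ᵥ x = 0) : w ᵥ* (tv x f h : Matrix ι ι F) = w + (w ⬝ᵥ x) • f := by
  rw [tv_val, vecMul_add, vecMul_one, vecMul_vecMulVec]

theorem tv_mulVec (z x f : ι → F) (h : f ⬝ᵥ x = 0) : (tv x f h : Matrix ι ι F) *ᵥ z = z + (f ⬝ᵥ z) • x := by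
  rw [tv_val, add_mulVec, one_mulVec, vecMulVec_mulVec, op_smul_eq_smul]

theorem dot_conj (g : SpecialLinearGroup ι F) (x f : ι → F) :
    (f ᵥ* ((g⁻¹ : SpecialLinearGroup ι F) : Matrix ι ι F)) ⬝ᵥ ((g : Matrix ι ι F) *ᵥ x) = f ⬝ᵥ x := by
  rw [dotProduct_mulVec, vecMul_vecMul, ← Matrix.SpecialLinearGroup.coe_mul, inv_mul_cancel, Matrix.SpecialLinearGroup.coe_one,
    vecMul_one]

theorem tv_conj (g : SpecialLinearGroup ι F) (x f : ι → F) (h : f ⬝ᵥ x = 0) :
    g * tv x f h * g⁻¹ = tv ((g : Matrix ι ι F) *ᵥ x) (f ᵥ* ((g⁻¹ : SpecialLinearGroup ι F) : Matrix ι ι F))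
      (by rw [dot_conj, h]) := by
  apply Subtype.ext
  rw [Matrix.SpecialLinearGroup.coe_mul, Matrix.SpecialLinearGroup.coe_mul, tv_val, tv_val, Matrix.mul_add, Matrix.add_mul,
    Matrix.mul_one, ← Matrix.SpecialLinearGroup.coe_mul, mul_inv_cancel, Matrix.SpecialLinearGroup.coe_one, Matrix.mul_vecMulVec,
    Matrix.vecMulVec_mul]

theorem dot_conj' (g : SpecialLinearGroup ι F) (x f : ι → F) :
    (f ᵥ* (g : Matrix ι ι F)) ⬝ᵥ (((g⁻¹ : SpecialLinearGroup ι F) : Matrix ι ι F) *ᵥ x) = f ⬝ᵥ x := by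
  rw [dotProduct_mulVec, vecMul_vecMul, ← Matrix.SpecialLinearGroup.coe_mul, mul_inv_cancel, Matrix.SpecialLinearGroup.coe_one,
    vecMul_one]

theorem tv_conj' (g : SpecialLinearGroup ι F) (x f : ι → F) (h : f ⬝ᵥ x = 0) :
    g⁻¹ * tv x f h * g = tv (((g⁻¹ : SpecialLinearGroup ι F) : Matrix ι ι F) *ᵥ x) (f ᵥ* (g : Matrix ι ι F))
      (by rw [dot_conj', h]) := by
  apply Subtype.ext
  rw [Matrix.SpecialLinearGroup.coe_mul, Matrix.SpecialLinearGroup.coe_mul, tv_val, tv_val, Matrix.mul_add, Matrix.add_mul,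
    Matrix.mul_one, ← Matrix.SpecialLinearGroup.coe_mul, inv_mul_cancel, Matrix.SpecialLinearGroup.coe_one, Matrix.mul_vecMulVec,
    Matrix.vecMulVec_mul]

theorem tv_congr {x x' f f' : ι → F} (h : f ⬝ᵥ x = 0) (h' : f' ⬝ᵥ x' = 0) (he : vecMulVec x f = vecMulVec x' f') :
    tv x f h = tv x' f' h' := by
  apply Subtype.ext
  rw [tv_val, tv_val, he]

theorem tv_smul (c : F) (x f : ι → F) (h : f ⬝ᵥ x = 0) :
    tv x (c • f) (by rw [smul_dotProduct, h, smul_zero]) = tv (c • x) f (by rw [dotProduct_smul, h, smul_zero]) :=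
  tv_congr _ _ (by rw [vecMulVec_smul, smul_vecMulVec])

/-- the hyperplane of a functional -/
def K (f : ι → F) : AddSubgroup (ι → F) where
  carrier := {x | f ⬝ᵥ x = 0}
  add_mem' {a b} ha hb := by
    change f ⬝ᵥ (a + b) = 0
    rw [dotProduct_add, show f ⬝ᵥ a = 0 from ha, show f ⬝ᵥ b = 0 from hb, add_zero]
  zero_mem' := dotProduct_zero f
  neg_mem' {a} ha := by
    change f ⬝ᵥ (-a) = 0
    rw [dotProduct_neg, show f ⬝ᵥ a = 0 from ha, neg_zero]

theorem mem_K {f x : ι → F} : x ∈ K f ↔ f ⬝ᵥ x = 0 := Iff.rfl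

instance [DecidableEq F] (f : ι → F) : DecidablePred fun x => x ∈ K f := fun x => inferInstanceAs (Decidable (f ⬝ᵥ x = 0))

/-- the group of transvections with axis `K f` -/
def jf (f : ι → F) : Multiplicative (K f) →* SpecialLinearGroup ι F where
  toFun x := tv (Multiplicative.toAdd x : K f) f (Multiplicative.toAdd x).2
  map_one' := by
    apply Subtype.ext
    change 1 + vecMulVec (0 : ι → F) f = 1
    rw [zero_vecMulVec, add_zero]
  map_mul' x y := by
    apply Subtype.ext
    change 1 + vecMulVec (((Multiplicative.toAdd x : K f) : ι → F) + ((Multiplicative.toAdd y : K f) : ι → F)) f =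
      (1 + vecMulVec ((Multiplicative.toAdd x : K f) : ι → F) f) * (1 + vecMulVec ((Multiplicative.toAdd y : K f) : ι → F) f)
    have h := (Multiplicative.toAdd y).2
    rw [mem_K] at h
    rw [Matrix.mul_add, Matrix.mul_one, Matrix.add_mul, Matrix.one_mul, vecMulVec_mul_vecMulVec, h, zero_smul,
      vecMulVec_zero, add_zero, add_vecMulVec, add_assoc]

theorem jf_apply (f : ι → F) (x : K f) : jf f (Multiplicative.ofAdd x) = tv (x : ι → F) f x.2 := rfl

end CfsgLib.SLw
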