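import Cfsg.Agent.LibCharBasic3
import Cfsg.Agent.LibCharNorm
import Cfsg.Agent.LibSLw1

set_option autoImplicit false

/-! The permutation character of `SL_n(q)` on nonzero vectors. -/

namespace CfsgLib.PermV

open Cfsg Matrix CfsgLib.CharBasic ComplexConjugate

section trans

variable {F : Type*} [Field F] {n : ℕ}

open CfsgLib.SLw

theorem step {U : Submodule F (Fin n → F)} {v w : Fin n → F} (h : v ∉ U ⊔ Submodule.span F {w - v}) :
    ∃ g : SpecialLinearGroup (Fin n) F, (∀ u ∈ U, (g : Matrix (Fin n) (Fin n) F) *ᵥ u = u) ∧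
      (g : Matrix (Fin n) (Fin n) F) *ᵥ v = w := by
  obtain ⟨f, hf, hf1⟩ := exists_vec _ h
  have hx : f ⬝ᵥ (w - v) = 0 := by
    rw [dotProduct_comm]
    exact hf _ (Submodule.mem_sup_right (Submodule.mem_span_singleton_self _))
  refine ⟨tv (w - v) f hx, ?_, ?_⟩
  · intro u hu
    rw [tv_mulVec, dotProduct_comm f u, hf u (Submodule.mem_sup_left hu), zero_smul, add_zero]
  · rw [tv_mulVec, dotProduct_comm f v, hf1, one_smul]
    abel

theorem move {U : Submodule F (Fin n → F)} (hU : Module.finrank F U + 1 < n) {v w : Fin n → F} (hv : v ∉ U)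
    (hw : w ∉ U) :
    ∃ g : SpecialLinearGroup (Fin n) F, (∀ u ∈ U, (g : Matrix (Fin n) (Fin n) F) *ᵥ u = u) ∧
      (g : Matrix (Fin n) (Fin n) F) *ᵥ v = w := by
  by_cases h : v ∈ U ⊔ Submodule.span F {w - v}
  · have hlt : Module.finrank F (U ⊔ Submodule.span F {w - v} : Submodule F (Fin n → F)) < n := by
      refine lt_of_le_of_lt (Submodule.finrank_add_le_finrank_add_finrank _ _) ?_
      have : Module.finrank F (Submodule.span F {w - v}) ≤ 1 := by
        simpa using finrank_span_le_card (R := F) ({w - v} : Set (Fin n → F))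
      omega
    obtain ⟨u, hu⟩ : ∃ u : Fin n → F, u ∉ (U ⊔ Submodule.span F {w - v} : Submodule F (Fin n → F)) := by
      by_contra hc
      push Not at hc
      have : (U ⊔ Submodule.span F {w - v} : Submodule F (Fin n → F)) = ⊤ := by
        rw [eq_top_iff]
        exact fun x _ => hc x
      rw [this, finrank_top, Module.finrank_fin_fun] at hlt
      exact lt_irrefl _ hlt
    set W := (U ⊔ Submodule.span F {w - v} : Submodule F (Fin n → F)) with hW
    have hUW : U ≤ W := le_sup_left
    have hwW : w ∈ W := by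
      have : w = v + (w - v) := by abel
      rw [this]
      exact W.add_mem h (Submodule.mem_sup_right (Submodule.mem_span_singleton_self _))
    have h1 : v ∉ U ⊔ Submodule.span F {u - v} := by
      rw [Submodule.mem_sup]
      rintro ⟨a, ha, b, hb, hab⟩
      obtain ⟨c, rfl⟩ := Submodule.mem_span_singleton.1 hb
      by_cases hc : c = 0
      · rw [hc, zero_smul, add_zero] at hab
        exact hv (hab ▸ ha)
      · apply hu
        rw [← W.smul_mem_iff hc]
        have : c • u = v - a + c • v := by linear_combination (norm := module) hab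
        rw [this]
        exact W.add_mem (W.sub_mem h (hUW ha)) (W.smul_mem _ h)
    have h2 : u ∉ U ⊔ Submodule.span F {w - u} := by
      rw [Submodule.mem_sup]
      rintro ⟨a, ha, b, hb, hab⟩
      obtain ⟨c, rfl⟩ := Submodule.mem_span_singleton.1 hb
      have h3 : (1 + c) • u = a + c • w := by
        rw [add_smul, one_smul]
        nth_rewrite 1 [← hab]
        rw [smul_sub]
        abel
      by_cases hc : 1 + c = 0
      · rw [hc, zero_smul] at h3
        have hc' : c = -1 := by linear_combination hc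
        rw [hc', neg_smul, one_smul, ← sub_eq_add_neg, eq_comm, sub_eq_zero] at h3
        exact hw (h3 ▸ ha)
      · apply hu
        rw [← W.smul_mem_iff hc, h3]
        exact W.add_mem (hUW ha) (W.smul_mem _ hwW)
    obtain ⟨g, hg, hgv⟩ := step h1
    obtain ⟨g', hg', hgv'⟩ := step h2
    refine ⟨g' * g, ?_, ?_⟩
    · intro x hx
      rw [Matrix.SpecialLinearGroup.coe_mul, ← mulVec_mulVec, hg x hx, hg' x hx]
    · rw [Matrix.SpecialLinearGroup.coe_mul, ← mulVec_mulVec, hgv, hgv']
  · exact step h

theorem orbits (hn : 3 ≤ n) {v₀ w₀ : Fin n → F} (hv₀ : v₀ ≠ 0) (hw₀ : w₀ ∉ Submodule.span F {v₀}) {v w : Fin n → F}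
    (hv : v ≠ 0) (hw : w ∉ Submodule.span F {v}) :
    ∃ g : SpecialLinearGroup (Fin n) F, (g : Matrix (Fin n) (Fin n) F) *ᵥ v = v₀ ∧
      (g : Matrix (Fin n) (Fin n) F) *ᵥ w = w₀ := by
  obtain ⟨g, -, hg⟩ := move (n := n) (U := ⊥) (v := v) (w := v₀) (by rw [finrank_bot]; omega)
    (by rwa [Submodule.mem_bot]) (by rwa [Submodule.mem_bot])
  have h1 : Module.finrank F (Submodule.span F {v₀}) + 1 < n := by
    rw [finrank_span_singleton hv₀]; omega
  have h2 : (g : Matrix (Fin n) (Fin n) F) *ᵥ w ∉ Submodule.span F {v₀} := by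
    intro hc
    obtain ⟨c, hc⟩ := Submodule.mem_span_singleton.1 hc
    apply hw
    rw [Submodule.mem_span_singleton]
    refine ⟨c, ?_⟩
    rw [← hg, ← mulVec_smul] at hc
    have := congrArg (fun x => ((g⁻¹ : SpecialLinearGroup (Fin n) F) : Matrix (Fin n) (Fin n) F) *ᵥ x) hc
    simp only [mulVec_mulVec, ← Matrix.SpecialLinearGroup.coe_mul, inv_mul_cancel, Matrix.SpecialLinearGroup.coe_one,
      one_mulVec] at this
    exact this
  obtain ⟨g', hg', hg'w⟩ := move h1 h2 hw₀
  refine ⟨g' * g, ?_, ?_⟩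
  · rw [Matrix.SpecialLinearGroup.coe_mul, ← mulVec_mulVec, hg, hg' _ (Submodule.mem_span_singleton_self _)]
  · rw [Matrix.SpecialLinearGroup.coe_mul, ← mulVec_mulVec, hg'w]

end trans

section char

universe u

variable {F : Type u} [Field F] [Fintype F] [DecidableEq F] {n : ℕ}

/-- nonzero vectors -/
abbrev X (F : Type u) [Field F] (n : ℕ) : Type u := {v : Fin n → F // v ≠ 0}

instance actΓ : MulAction (SpecialLinearGroup (Fin n) F × Fˣ) (X F n) where
  smul g v := ⟨(g.2 : F) • ((g.1 : Matrix (Fin n) (Fin n) F) *ᵥ v.1), by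
    rw [smul_ne_zero_iff]
    refine ⟨g.2.ne_zero, fun h => v.2 ?_⟩
    have := congrArg (fun x => ((g.1⁻¹ : SpecialLinearGroup (Fin n) F) : Matrix (Fin n) (Fin n) F) *ᵥ x) h
    simp only [mulVec_mulVec, ← Matrix.SpecialLinearGroup.coe_mul, inv_mul_cancel, Matrix.SpecialLinearGroup.coe_one,
      one_mulVec, mulVec_zero] at this
    exact this⟩
  one_smul v := Subtype.ext (by
    change ((1 : Fˣ) : F) • (((1 : SpecialLinearGroup (Fin n) F) : Matrix (Fin n) (Fin n) F) *ᵥ v.1) = v.1
    rw [Units.val_one, one_smul, Matrix.SpecialLinearGroup.coe_one, one_mulVec])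
  mul_smul a b v := Subtype.ext (by
    change ((a.2 * b.2 : Fˣ) : F) • (((a.1 * b.1 : SpecialLinearGroup (Fin n) F) : Matrix (Fin n) (Fin n) F) *ᵥ v.1) =
      (a.2 : F) • ((a.1 : Matrix (Fin n) (Fin n) F) *ᵥ ((b.2 : F) • ((b.1 : Matrix (Fin n) (Fin n) F) *ᵥ v.1)))
    rw [Matrix.SpecialLinearGroup.coe_mul, ← mulVec_mulVec, mulVec_smul, Units.val_mul, mul_smul])

theorem coe_smul (g : SpecialLinearGroup (Fin n) F × Fˣ) (v : X F n) :
    (g • v).1 = (g.2 : F) • ((g.1 : Matrix (Fin n) (Fin n) F) *ᵥ v.1) := rfl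

instance actG : MulAction (SpecialLinearGroup (Fin n) F) (X F n) :=
  MulAction.compHom _ (MonoidHom.inl (SpecialLinearGroup (Fin n) F) Fˣ)

theorem coe_smul' (g : SpecialLinearGroup (Fin n) F) (v : X F n) :
    (g • v).1 = (g : Matrix (Fin n) (Fin n) F) *ᵥ v.1 := by
  change ((1 : Fˣ) : F) • ((g : Matrix (Fin n) (Fin n) F) *ᵥ v.1) = _
  rw [Units.val_one, one_smul]

/-- the big permutation character -/
noncomputable def Pi (n : ℕ) (F : Type u) [Field F] [Fintype F] [DecidableEq F] :
    SpecialLinearGroup (Fin n) F × Fˣ → ℂ := fun g => (Nat.card (MulAction.fixedBy (X F n) g) : ℂ)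

theorem pi_char : IsCharacter _ (Pi n F) := isCharacter_perm

/-- linear characters of the scalars -/
theorem lin_char (l : AddChar (Additive Fˣ) ℂ) : IsCharacter Fˣ (fun c => l (Additive.ofMul c)) := by
  let f : Fˣ →* ℂ :=
    { toFun := fun c => l (Additive.ofMul c)
      map_one' := by rw [ofMul_one, AddChar.map_zero_eq_one]
      map_mul' := fun a b => by rw [ofMul_mul, AddChar.map_add_eq_mul] }
  have h : IsIrrCharacter Fˣ (fun c => ((f.toHomUnits c : ℂˣ) : ℂ)) := isIrrCharacter_hom f.toHomUnits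
  exact irr_isCharacter h

/-- the component of the permutation character -/
noncomputable def P (n : ℕ) (l : AddChar (Additive Fˣ) ℂ) : SpecialLinearGroup (Fin n) F → ℂ := fun g =>
  (Fintype.card Fˣ : ℂ)⁻¹ * ∑ c : Fˣ, Pi n F (g, c) * conj (l (Additive.ofMul c))

theorem inner_P (l : AddChar (Additive Fˣ) ℂ) (ψ : SpecialLinearGroup (Fin n) F → ℂ) :
    classInner (P n l) ψ = classInner (Pi n F) (fun g => ψ g.1 * l (Additive.ofMul g.2)) := by
  simp only [classInner, P]
  rw [Fintype.sum_prod_type, Nat.card_prod, Nat.card_eq_fintype_card (α := Fˣ)]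
  push_cast
  rw [Finset.mul_sum, Finset.mul_sum]
  refine Finset.sum_congr rfl fun g _ => ?_
  rw [Finset.mul_sum, Finset.sum_mul, Finset.mul_sum, Finset.mul_sum]
  refine Finset.sum_congr rfl fun c _ => ?_
  rw [map_mul, mul_inv]
  ring

theorem P_char (l : AddChar (Additive Fˣ) ℂ) : IsCharacter (SpecialLinearGroup (Fin n) F) (P n l) := by
  rw [isCharacter_iff]
  constructor
  · intro g h
    simp only [P]
    congr 1
    refine Finset.sum_congr rfl fun c _ => ?_
    congr 1
    have := char_classFun (pi_char (n := n) (F := F)) (g, c) (h, 1)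
    simpa using this
  · intro ψ hψ
    rw [inner_P]
    refine char_mult pi_char (isCharacter_mul ?_ ?_)
    · exact isCharacter_comp (irr_isCharacter hψ) (MonoidHom.fst (SpecialLinearGroup (Fin n) F) Fˣ)
    · exact isCharacter_comp (lin_char l) (MonoidHom.snd (SpecialLinearGroup (Fin n) F) Fˣ)

theorem sum_P (g : SpecialLinearGroup (Fin n) F) : ∑ l, P n l g = Pi n F (g, 1) := by
  simp only [P]
  rw [← Finset.mul_sum, Finset.sum_comm]
  have h1 : ∀ c : Fˣ, ∑ l : AddChar (Additive Fˣ) ℂ, Pi n F (g, c) * conj (l (Additive.ofMul c)) =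
      Pi n F (g, c) * if c = 1 then (Fintype.card Fˣ : ℂ) else 0 := by
    intro c
    rw [← Finset.mul_sum, ← map_sum]
    congr 1
    rw [AddChar.sum_apply_eq_ite]
    by_cases h : c = 1
    · rw [if_pos h, if_pos (by rw [h]; rfl)]
      simp
    · rw [if_neg h, if_neg (by rwa [ofMul_eq_zero]), map_zero]
  simp only [h1, mul_ite, mul_zero, Finset.sum_ite_eq', Finset.mem_univ, if_true]
  have : (Fintype.card Fˣ : ℂ) ≠ 0 := by exact_mod_cast Fintype.card_ne_zero
  field_simp

theorem inner_perm {G X : Type*} [Group G] [Fintype G] [MulAction G X] [Finite X] :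
    classInner (fun g : G => (Nat.card (MulAction.fixedBy X g) : ℂ)) (fun _ => 1) =
      (Nat.card (MulAction.orbitRel.Quotient G X) : ℂ) := by
  classical
  haveI := Fintype.ofFinite X
  haveI : Fintype (MulAction.orbitRel.Quotient G X) := Fintype.ofFinite _
  have h := MulAction.sum_card_fixedBy_eq_card_orbits_mul_card_group G X
  rw [inner_one_right]
  have hG : (Nat.card G : ℂ) ≠ 0 := by exact_mod_cast Nat.card_pos.ne'
  have h2 : ∑ g : G, (Nat.card (MulAction.fixedBy X g) : ℂ) = (Nat.card (MulAction.orbitRel.Quotient G X) : ℂ) * Nat.card G := by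
    rw [Nat.card_eq_fintype_card (α := G), Nat.card_eq_fintype_card (α := MulAction.orbitRel.Quotient G X)]
    have : ∑ g : G, (Nat.card (MulAction.fixedBy X g)) = Fintype.card (MulAction.orbitRel.Quotient G X) * Fintype.card G := by
      rw [← h]
      exact Finset.sum_congr rfl fun g _ => Nat.card_eq_fintype_card
    exact_mod_cast this
  rw [h2]; field_simp

theorem inner_perm_self {G X : Type*} [Group G] [Fintype G] [MulAction G X] [Finite X] :
    classInner (fun g : G => (Nat.card (MulAction.fixedBy X g) : ℂ)) (fun g : G => (Nat.card (MulAction.fixedBy X g) : ℂ)) =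
      (Nat.card (MulAction.orbitRel.Quotient G (X × X)) : ℂ) := by
  rw [← inner_perm]
  simp only [classInner]
  congr 1
  refine Finset.sum_congr rfl fun g _ => ?_
  rw [Complex.conj_natCast, map_one, mul_one, ← Nat.cast_mul, ← Nat.card_prod]
  congr 1
  apply Nat.card_congr
  refine ⟨fun p => ⟨(p.1.1, p.2.1), ?_⟩, fun p => (⟨p.1.1, ?_⟩, ⟨p.1.2, ?_⟩), fun p => rfl, fun p => rfl⟩
  · have h1 := p.1.2; have h2 := p.2.2
    rw [MulAction.mem_fixedBy] at h1 h2 ⊢
    exact Prod.ext h1 h2
  · have h := p.2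
    rw [MulAction.mem_fixedBy] at h ⊢
    exact congrArg Prod.fst h
  · have h := p.2
    rw [MulAction.mem_fixedBy] at h ⊢
    exact congrArg Prod.snd h

/-- the restriction to `SL` -/
theorem pi_res (g : SpecialLinearGroup (Fin n) F) : Pi n F (g, 1) = (Nat.card (MulAction.fixedBy (X F n) g) : ℂ) := rfl

theorem pi_one (c : Fˣ) : Pi n F (1, c) = if c = 1 then (Nat.card (X F n) : ℂ) else 0 := by
  by_cases h : c = 1
  · rw [if_pos h, h]
    simp only [Pi]
    congr 1
    apply Nat.card_congr
    refine ⟨fun x => x.1, fun x => ⟨x, one_smul _ x⟩, fun _ => rfl, fun _ => rfl⟩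
  · rw [if_neg h]
    simp only [Pi]
    rw [Nat.cast_eq_zero, Nat.card_eq_zero]
    left
    refine ⟨fun x => h ?_⟩
    have := congrArg Subtype.val x.2
    rw [coe_smul, Matrix.SpecialLinearGroup.coe_one, one_mulVec] at this
    have h2 : ((c : F) - 1) • x.1.1 = 0 := by rw [sub_smul, one_smul, sub_eq_zero]; exact this
    rcases smul_eq_zero.1 h2 with h3 | h3
    · exact Units.ext (sub_eq_zero.1 h3)
    · exact absurd h3 x.1.2

theorem P_one (l : AddChar (Additive Fˣ) ℂ) : P n l 1 = (Fintype.card Fˣ : ℂ)⁻¹ * Nat.card (X F n) := by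
  simp only [P, pi_one, ite_mul, zero_mul, Finset.sum_ite_eq', Finset.mem_univ, if_true]
  rw [ofMul_one, AddChar.map_zero_eq_one, map_one, mul_one]

theorem card_X_gt (hn : 2 ≤ n) : Fintype.card Fˣ < Nat.card (X F n) := by
  have h0 : Fintype.card Fˣ = Nat.card {c : F // c ≠ 0} := by
    rw [Nat.card_eq_fintype_card, Fintype.card_congr unitsEquivNeZero]
  rw [h0]
  have h1 : Nat.card {c : F // c ≠ 0} < Nat.card {c : F // c ≠ 0} + 1 := Nat.lt_succ_self _
  refine lt_of_lt_of_le h1 ?_
  have h2 : Nat.card {c : F // c ≠ 0} + 1 = Nat.card (Option {c : F // c ≠ 0}) := by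
    rw [Finite.card_option]
  rw [h2]
  let i0 : Fin n := ⟨0, by omega⟩
  let i1 : Fin n := ⟨1, by omega⟩
  have hne : i0 ≠ i1 := by
    intro h; have := congrArg Fin.val h; simp [i0, i1] at this
  refine Nat.card_le_card_of_injective (fun o => match o with
    | none => (⟨Pi.single i1 1, by
        intro h
        have := congrFun h i1
        simp at this⟩ : X F n)
    | some c => ⟨Pi.single i0 c.1, by
        intro h
        have := congrFun h i0
        simp only [Pi.single_eq_same, Pi.zero_apply] at this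
        exact c.2 this⟩) ?_
  intro a b hab
  match a, b with
  | none, none => rfl
  | none, some c =>
    exfalso
    have := congrFun (congrArg Subtype.val hab) i1
    simp [Pi.single_eq_of_ne hne.symm] at this
  | some c, none =>
    exfalso
    have := congrFun (congrArg Subtype.val hab) i1
    simp [Pi.single_eq_of_ne hne.symm] at this
  | some c, some d =>
    have := congrFun (congrArg Subtype.val hab) i0
    simp only [Pi.single_eq_same] at this
    rw [Subtype.ext this]

theorem card_orbits (hn : 3 ≤ n) :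
    Nat.card (MulAction.orbitRel.Quotient (SpecialLinearGroup (Fin n) F) (X F n × X F n)) ≤ Fintype.card Fˣ + 1 := by
  have h2 : Fintype.card Fˣ + 1 = Nat.card (Option Fˣ) := by
    rw [Finite.card_option, Nat.card_eq_fintype_card]
  rw [h2]
  let i0 : Fin n := ⟨0, by omega⟩
  let i1 : Fin n := ⟨1, by omega⟩
  have hne : i0 ≠ i1 := by
    intro h; have := congrArg Fin.val h; simp [i0, i1] at this
  have hv0 : (Pi.single i0 1 : Fin n → F) ≠ 0 := by
    intro h; have := congrFun h i0; simp at this
  have hw0 : (Pi.single i1 1 : Fin n → F) ≠ 0 := by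
    intro h; have := congrFun h i1; simp at this
  have hind : (Pi.single i1 1 : Fin n → F) ∉ Submodule.span F {(Pi.single i0 1 : Fin n → F)} := by
    rw [Submodule.mem_span_singleton]
    rintro ⟨c, hc⟩
    have := congrFun hc i1
    simp [Pi.single_eq_of_ne hne.symm] at this
  let v0 : X F n := ⟨Pi.single i0 1, hv0⟩
  let w0 : X F n := ⟨Pi.single i1 1, hw0⟩
  let f : Option Fˣ → MulAction.orbitRel.Quotient (SpecialLinearGroup (Fin n) F) (X F n × X F n) := fun o =>
    match o with
    | none => Quotient.mk _ (v0, w0)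
    | some c => Quotient.mk _ (v0, ((1, c) : SpecialLinearGroup (Fin n) F × Fˣ) • v0)
  refine Nat.card_le_card_of_surjective f ?_
  intro y
  obtain ⟨⟨v, w⟩, rfl⟩ := Quotient.exists_rep y
  by_cases h : w.1 ∈ Submodule.span F {v.1}
  · obtain ⟨c, hc⟩ := Submodule.mem_span_singleton.1 h
    have hc0 : c ≠ 0 := by
      rintro rfl
      rw [zero_smul] at hc
      exact w.2 hc.symm
    obtain ⟨g, -, hg⟩ := move (n := n) (U := ⊥) (v := v.1) (w := v0.1) (by rw [finrank_bot]; omega)
      (by rw [Submodule.mem_bot]; exact v.2) (by rw [Submodule.mem_bot]; exact v0.2)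
    refine ⟨some (Units.mk0 c hc0), ?_⟩
    apply Quotient.sound
    change (MulAction.orbitRel _ _).r _ _
    rw [MulAction.orbitRel_apply]
    refine ⟨g, Prod.ext (Subtype.ext ?_) (Subtype.ext ?_)⟩
    · exact (coe_smul' g v).trans hg
    · refine (coe_smul' g w).trans ?_
      rw [coe_smul, ← hc, mulVec_smul, hg]
      rw [Matrix.SpecialLinearGroup.coe_one, one_mulVec]
      rfl
  · obtain ⟨g, hg1, hg2⟩ := orbits hn hv0 hind v.2 h
    refine ⟨none, ?_⟩
    apply Quotient.sound
    change (MulAction.orbitRel _ _).r _ _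
    rw [MulAction.orbitRel_apply]
    exact ⟨g, Prod.ext (Subtype.ext ((coe_smul' g v).trans hg1)) (Subtype.ext ((coe_smul' g w).trans hg2))⟩

/-- the irreducible constituents -/
noncomputable def phi (n : ℕ) (l : AddChar (Additive Fˣ) ℂ) : SpecialLinearGroup (Fin n) F → ℂ :=
  open Classical in if l = 0 then P n l - (fun _ => 1) else P n l

theorem nonempty_X (hn : 2 ≤ n) : Nonempty (X F n) := by
  have h := card_X_gt (F := F) hn
  exact (Nat.card_pos_iff.1 (by omega)).1

theorem phi_char (hn : 2 ≤ n) (l : AddChar (Additive Fˣ) ℂ) : IsCharacter _ (phi n l) := by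
  unfold phi
  split_ifs with h
  · subst h
    rw [isCharacter_iff]
    refine ⟨classFun_sub (char_classFun (P_char _)) (char_classFun isCharacter_one), fun ψ hψ => ?_⟩
    rw [CfsgLib.CharBasic.inner_sub_left]
    by_cases h : ψ = fun _ => 1
    · rw [h, irr_inner_self isIrrCharacter_one, inner_P]
      have h1 : (fun g : SpecialLinearGroup (Fin n) F × Fˣ => (1 : ℂ) * (0 : AddChar (Additive Fˣ) ℂ) (Additive.ofMul g.2)) =
          fun _ => 1 := by
        funext g
        rw [one_mul]
        exact AddChar.zero_apply _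
      rw [h1]
      have h2 := inner_perm (G := SpecialLinearGroup (Fin n) F × Fˣ) (X := X F n)
      change classInner (Pi n F) _ = _ at h2
      rw [h2]
      obtain ⟨x⟩ := nonempty_X (F := F) hn
      haveI : Nonempty (MulAction.orbitRel.Quotient (SpecialLinearGroup (Fin n) F × Fˣ) (X F n)) := ⟨Quotient.mk _ x⟩
      have h3 : 0 < Nat.card (MulAction.orbitRel.Quotient (SpecialLinearGroup (Fin n) F × Fˣ) (X F n)) := Nat.card_pos
      exact ⟨_, (Nat.cast_pred h3).symm⟩
    · rw [irr_inner_ne isIrrCharacter_one hψ (fun h2 => h h2.symm), sub_zero]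
      exact char_mult (P_char _) (irr_isCharacter hψ)
  · exact P_char l

theorem phi_ne_zero (hn : 2 ≤ n) (l : AddChar (Additive Fˣ) ℂ) : phi n l ≠ 0 := by
  intro h0
  have h := congrFun h0 1
  have hc := card_X_gt (F := F) hn
  have hq : (Fintype.card Fˣ : ℂ) ≠ 0 := by exact_mod_cast Fintype.card_ne_zero
  unfold phi at h
  split_ifs at h with hl
  · simp only [Pi.sub_apply, Pi.zero_apply, P_one] at h
    field_simp at h
    have h2 : (Nat.card (X F n) : ℂ) = Fintype.card Fˣ := by linear_combination h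
    have h3 : Nat.card (X F n) = Fintype.card Fˣ := by exact_mod_cast h2
    omega
  · simp only [Pi.zero_apply, P_one] at h
    rcases mul_eq_zero.1 h with h1 | h1
    · exact hq (inv_eq_zero.1 h1)
    · have h3 : Nat.card (X F n) = 0 := by exact_mod_cast h1
      omega

theorem sum_phi (g : SpecialLinearGroup (Fin n) F) :
    ∑ l, phi n l g = (Nat.card (MulAction.fixedBy (X F n) g) : ℂ) - 1 := by
  classical
  rw [← pi_res, ← sum_P, ← Finset.sum_erase_add _ _ (Finset.mem_univ (0 : AddChar (Additive Fˣ) ℂ)),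
    ← Finset.sum_erase_add Finset.univ (fun l => P n l g) (Finset.mem_univ (0 : AddChar (Additive Fˣ) ℂ))]
  rw [add_sub_assoc]
  congr 1
  · refine Finset.sum_congr rfl fun l hl => ?_
    unfold phi
    rw [if_neg (Finset.ne_of_mem_erase hl)]
  · unfold phi
    rw [if_pos rfl]
    rfl

theorem phi_main (hn : 3 ≤ n) : ∀ l l' : AddChar (Additive Fˣ) ℂ,
    classInner (phi n l) (phi n l') = open Classical in if l = l' then 1 else 0 := by
  classical
  have h2n : 2 ≤ n := by omega
  choose m hm using fun l l' : AddChar (Additive Fˣ) ℂ => char_mult (phi_char h2n l) (phi_char h2n l')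
  have hdiag : ∀ l, 1 ≤ m l l := by
    intro l
    by_contra hlt
    have h0 : m l l = 0 := by omega
    have := hm l l
    rw [h0, Nat.cast_zero] at this
    exact phi_ne_zero h2n l (inner_self_eq_zero this)
  set π : SpecialLinearGroup (Fin n) F → ℂ := fun g => (Nat.card (MulAction.fixedBy (X F n) g) : ℂ) with hπ
  have hsum : ∑ l : AddChar (Additive Fˣ) ℂ, phi n l = π - (fun _ => 1) := by
    funext g
    rw [Finset.sum_apply, sum_phi]
    rfl
  have h1 : classInner (∑ l : AddChar (Additive Fˣ) ℂ, phi n l) (∑ l : AddChar (Additive Fˣ) ℂ, phi n l) =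
      ((∑ l, ∑ l', m l l' : ℕ) : ℂ) := by
    rw [CfsgLib.CharBasic.inner_sum_left]
    push_cast
    refine Finset.sum_congr rfl fun l _ => ?_
    rw [CfsgLib.CharBasic.inner_sum_right]
    exact Finset.sum_congr rfl fun l' _ => hm l l'
  rw [hsum, CfsgLib.CharBasic.inner_sub_left, CfsgLib.CharBasic.inner_sub_right, CfsgLib.CharBasic.inner_sub_right] at h1
  have h2 : classInner π π = _ := inner_perm_self
  have h3 : classInner π (fun _ => 1) = _ := inner_perm
  have h3' : classInner (fun _ => 1) π = classInner π (fun _ => 1) := by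
    rw [← CfsgLib.CharBasic.inner_conj_symm, h3, Complex.conj_natCast]
  rw [h3', h2, h3, irr_inner_self isIrrCharacter_one] at h1
  have hor := card_orbits (F := F) hn
  obtain ⟨x⟩ := nonempty_X (F := F) h2n
  haveI : Nonempty (MulAction.orbitRel.Quotient (SpecialLinearGroup (Fin n) F) (X F n)) := ⟨Quotient.mk _ x⟩
  have hpos : 0 < Nat.card (MulAction.orbitRel.Quotient (SpecialLinearGroup (Fin n) F) (X F n)) := Nat.card_pos
  set a := Nat.card (MulAction.orbitRel.Quotient (SpecialLinearGroup (Fin n) F) (X F n × X F n))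
  set b := Nat.card (MulAction.orbitRel.Quotient (SpecialLinearGroup (Fin n) F) (X F n))
  have h4 : (a : ℤ) - b - (b - 1) = (∑ l, ∑ l', m l l' : ℕ) := by
    have : ((((a : ℤ) - b - (b - 1) : ℤ)) : ℂ) = (((∑ l, ∑ l', m l l' : ℕ) : ℤ) : ℂ) := by
      push_cast
      push_cast at h1
      exact h1
    exact_mod_cast this
  have h5 : ∑ l, ∑ l', m l l' ≤ Fintype.card (AddChar (Additive Fˣ) ℂ) := by
    rw [AddChar.card_eq]
    have : Fintype.card (Additive Fˣ) = Fintype.card Fˣ := Fintype.card_additive _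
    rw [this]
    omega
  have h6 : ∀ l, m l l ≤ ∑ l', m l l' := fun l => Finset.single_le_sum (f := fun l' => m l l') (fun _ _ => Nat.zero_le _)
    (Finset.mem_univ l)
  have h7 : ∀ l, ∑ l', m l l' = 1 := by
    have h8 : ∀ l ∈ (Finset.univ : Finset (AddChar (Additive Fˣ) ℂ)), 1 ≤ ∑ l', m l l' := fun l _ =>
      (hdiag l).trans (h6 l)
    have h9 : ∑ l : AddChar (Additive Fˣ) ℂ, 1 = ∑ l, ∑ l', m l l' := by
      apply le_antisymm (Finset.sum_le_sum h8)
      simpa using h5
    intro l
    exact ((Finset.sum_eq_sum_iff_of_le h8).1 h9 l (Finset.mem_univ l)).symm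
  intro l l'
  rw [hm]
  by_cases h : l = l'
  · subst h
    rw [if_pos rfl]
    have := h6 l
    have := hdiag l
    have := h7 l
    have : m l l = 1 := by omega
    rw [this, Nat.cast_one]
  · rw [if_neg h]
    have h8 : m l l + m l l' ≤ ∑ l', m l l' := by
      rw [← Finset.sum_pair h]
      exact Finset.sum_le_sum_of_subset (Finset.subset_univ _)
    have := hdiag l
    have := h7 l
    have : m l l' = 0 := by omega
    rw [this, Nat.cast_zero]

end char

end CfsgLib.PermV
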