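import Mathlib
import Cfsg.Prelude.Def_Transfer
import Cfsg.Agent.LibPClasses

set_option autoImplicit false
set_option linter.style.haveILetI false

/-!
Counting conjugacy classes of `π`-elements.
-/

namespace CfsgLib.PiClasses

open Finset CfsgLib.PClasses
open scoped Pointwise

universe u

/-- type of conjugacy classes of `π`-elements -/
abbrev KPi (π : Set ℕ) (G : Type*) [Group G] : Type _ :=
  {c : ConjClasses G // ∀ x ∈ c.carrier, ∀ r : ℕ, r.Prime → r ∣ orderOf x → r ∈ π}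

/-- the `π`-part of the order -/
def piPart (π : Finset ℕ) (n : ℕ) : ℕ := π.prod (fun r => r ^ n.factorization r)

theorem piPart_pos {π : Finset ℕ} (hπ : ∀ r ∈ π, r.Prime) (n : ℕ) : 0 < piPart π n :=
  Finset.prod_pos (fun r hr => pow_pos (hπ r hr).pos _)

theorem piPart_le_of_dvd {π : Finset ℕ} (hπ : ∀ r ∈ π, r.Prime) {m n : ℕ} (hm : m ∣ n) (hn : n ≠ 0) :
    piPart π m ≤ piPart π n := by
  apply Finset.prod_le_prod'
  intro r hr
  apply Nat.pow_le_pow_right (hπ r hr).pos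
  exact (Nat.factorization_le_iff_dvd (ne_zero_of_dvd_ne_zero hn hm) hn).2 hm r

/-- decomposition of an element into commuting `q`-part and `q'`-part -/
theorem exists_q_part {G : Type u} [Group G] [Finite G] {q : ℕ} (hq : q.Prime) (z : G) :
    ∃ x y : G, z = x * y ∧ (∃ k, orderOf x = q ^ k) ∧ x * y = y * x ∧ ¬ q ∣ orderOf y ∧ orderOf y ∣ orderOf z ∧
      orderOf x ∣ orderOf z := by
  have hpos : orderOf z ≠ 0 := (orderOf_pos z).ne'
  obtain ⟨a, m, hm, hzm⟩ := Nat.exists_eq_pow_mul_and_not_dvd hpos q hq.ne_one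
  have hcop : IsCoprime ((q : ℤ) ^ a) (m : ℤ) := by
    have : Nat.Coprime (q ^ a) m := Nat.Coprime.pow_left _ ((Nat.Prime.coprime_iff_not_dvd hq).2 hm)
    have h := Nat.isCoprime_iff_coprime.2 this
    simpa using h
  obtain ⟨u, v, huv⟩ := hcop
  refine ⟨z ^ (v * m), z ^ (u * q ^ a), ?_, ?_, ?_, ?_, ?_, ?_⟩
  · rw [← zpow_add, add_comm, huv, zpow_one]
  · have h1 : (z ^ (v * m)) ^ (q ^ a) = 1 := by
      rw [← zpow_natCast, ← zpow_mul]
      have : v * (m : ℤ) * ((q ^ a : ℕ) : ℤ) = v * (orderOf z : ℤ) := by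
        rw [hzm]; push_cast; ring
      rw [this, mul_comm, zpow_mul, zpow_natCast, pow_orderOf_eq_one, one_zpow]
    obtain ⟨k, _, hk⟩ := (Nat.dvd_prime_pow hq).1 (orderOf_dvd_of_pow_eq_one h1)
    exact ⟨k, hk⟩
  · rw [← zpow_add, ← zpow_add, add_comm]
  · have h1 : (z ^ (u * q ^ a)) ^ m = 1 := by
      rw [← zpow_natCast, ← zpow_mul]
      have : u * (q : ℤ) ^ a * (m : ℤ) = u * (orderOf z : ℤ) := by
        rw [hzm]; push_cast; ring
      rw [this, mul_comm, zpow_mul, zpow_natCast, pow_orderOf_eq_one, one_zpow]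
    intro h2
    exact hm (h2.trans (orderOf_dvd_of_pow_eq_one h1))
  · apply orderOf_dvd_of_pow_eq_one
    rw [← zpow_natCast, ← zpow_mul, mul_comm, zpow_mul, zpow_natCast, pow_orderOf_eq_one, one_zpow]
  · apply orderOf_dvd_of_pow_eq_one
    rw [← zpow_natCast, ← zpow_mul, mul_comm, zpow_mul, zpow_natCast, pow_orderOf_eq_one, one_zpow]

/-- representative of a class -/
noncomputable def rep {G : Type u} [Group G] (c : ConjClasses G) : G := (ConjClasses.exists_rep c).choose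

theorem mk_rep {G : Type u} [Group G] (c : ConjClasses G) : ConjClasses.mk (rep c) = c :=
  (ConjClasses.exists_rep c).choose_spec

theorem isConj_rep {G : Type u} [Group G] (x : G) : IsConj (rep (ConjClasses.mk x)) x :=
  ConjClasses.mk_eq_mk_iff_isConj.1 (mk_rep _)

theorem orderOf_eq_of_isConj {G : Type u} [Group G] {x y : G} (h : IsConj x y) : orderOf x = orderOf y := by
  obtain ⟨c, rfl⟩ := isConj_iff.1 h
  exact (MulEquiv.orderOf_eq (MulAut.conj c) x).symm

/-- main surjection -/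
theorem exists_surj {G : Type u} [Group G] [Finite G] (π : Finset ℕ) (hπ : ∀ r ∈ π, r.Prime) {q : ℕ} (hq : q.Prime) (hqπ : q ∉ π) :
    Nat.card (KPi ((insert q π : Finset ℕ) : Set ℕ) G) ≤
      Nat.card (Σ c : KP q G, KPi (π : Set ℕ) (Subgroup.centralizer ({rep c.1} : Set G))) := by
  classical
  let D := Σ c : KP q G, KPi (π : Set ℕ) (Subgroup.centralizer ({rep c.1} : Set G))
  have hF : ∀ d : D, ∀ x ∈ (ConjClasses.mk ((rep d.1.1 : G) * (rep d.2.1 : Subgroup.centralizer ({rep d.1.1} : Set G)))).carrier,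
      ∀ r : ℕ, r.Prime → r ∣ orderOf x → r ∈ ((insert q π : Finset ℕ) : Set ℕ) := by
    rintro ⟨c, e⟩ x hx r hr hrx
    dsimp only at hx
    rw [ConjClasses.mem_carrier_iff_mk_eq, ConjClasses.mk_eq_mk_iff_isConj] at hx
    rw [orderOf_eq_of_isConj hx] at hrx
    have hcomm : Commute (rep c.1 : G) ((rep e.1 : Subgroup.centralizer ({rep c.1} : Set G)) : G) := by
      have := (rep e.1 : Subgroup.centralizer ({rep c.1} : Set G)).2
      rw [Subgroup.mem_centralizer_singleton_iff] at this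
      exact this.symm
    have h1 := hrx.trans hcomm.orderOf_mul_dvd_mul_orderOf
    rw [Finset.coe_insert]
    rcases (Nat.Prime.dvd_mul hr).1 h1 with h2 | h2
    · left
      obtain ⟨k, hk⟩ := c.2 (rep c.1) (by rw [ConjClasses.mem_carrier_iff_mk_eq, mk_rep])
      rw [hk] at h2
      exact (Nat.prime_dvd_prime_iff_eq hr hq).1 (hr.dvd_of_dvd_pow h2)
    · right
      rw [Subgroup.orderOf_coe] at h2
      exact e.2 (rep e.1) (by rw [ConjClasses.mem_carrier_iff_mk_eq, mk_rep]) r hr h2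
  let F : D → KPi ((insert q π : Finset ℕ) : Set ℕ) G := fun d =>
    ⟨ConjClasses.mk ((rep d.1.1 : G) * (rep d.2.1 : Subgroup.centralizer ({rep d.1.1} : Set G))), hF d⟩
  apply Nat.card_le_card_of_surjective F
  rintro ⟨c, hc⟩
  obtain ⟨z, rfl⟩ := ConjClasses.exists_rep c
  obtain ⟨x, y, hz, hx, hxy, hy, hyz, hxz⟩ := exists_q_part hq z
  have hmem : ∀ w ∈ (ConjClasses.mk x).carrier, ∃ k : ℕ, orderOf w = q ^ k := by
    intro w hw
    rw [ConjClasses.mem_carrier_iff_mk_eq, ConjClasses.mk_eq_mk_iff_isConj] at hw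
    rw [orderOf_eq_of_isConj hw]
    exact hx
  let c0 : KP q G := ⟨ConjClasses.mk x, hmem⟩
  obtain ⟨g, hg⟩ := isConj_iff.1 (isConj_rep x).symm
  -- g x g⁻¹ = rep
  have hy' : g * y * g⁻¹ ∈ Subgroup.centralizer ({rep c0.1} : Set G) := by
    rw [Subgroup.mem_centralizer_singleton_iff]
    change g * y * g⁻¹ * rep (ConjClasses.mk x) = rep (ConjClasses.mk x) * (g * y * g⁻¹)
    rw [← hg]
    calc g * y * g⁻¹ * (g * x * g⁻¹) = g * (y * x) * g⁻¹ := by group
      _ = g * (x * y) * g⁻¹ := by rw [hxy]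
      _ = _ := by group
  let y0 : Subgroup.centralizer ({rep c0.1} : Set G) := ⟨g * y * g⁻¹, hy'⟩
  have hmem2 : ∀ w ∈ (ConjClasses.mk y0).carrier, ∀ r : ℕ, r.Prime → r ∣ orderOf w → r ∈ (π : Set ℕ) := by
    intro w hw r hr hrw
    rw [ConjClasses.mem_carrier_iff_mk_eq, ConjClasses.mk_eq_mk_iff_isConj] at hw
    rw [orderOf_eq_of_isConj hw, ← Subgroup.orderOf_coe] at hrw
    have h1 : orderOf (y0 : G) = orderOf y := by
      change orderOf (g * y * g⁻¹) = orderOf y
      exact MulEquiv.orderOf_eq (MulAut.conj g) y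
    rw [h1] at hrw
    have h2 := hc z ConjClasses.mem_carrier_mk r hr (hrw.trans hyz)
    rw [Finset.coe_insert] at h2
    rcases h2 with h2 | h2
    · exfalso; apply hy; rw [← h2]; exact hrw
    · exact h2
  refine ⟨⟨c0, ⟨ConjClasses.mk y0, hmem2⟩⟩, ?_⟩
  apply Subtype.ext
  change ConjClasses.mk ((rep c0.1 : G) * (rep (ConjClasses.mk y0) : Subgroup.centralizer ({rep c0.1} : Set G))) = ConjClasses.mk z
  rw [ConjClasses.mk_eq_mk_iff_isConj]
  obtain ⟨h, hh⟩ := isConj_iff.1 (isConj_rep y0).symm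
  have hh' : (h : G) * (g * y * g⁻¹) * (h : G)⁻¹ = ((rep (ConjClasses.mk y0) : Subgroup.centralizer ({rep c0.1} : Set G)) : G) := by
    rw [← hh]; rfl
  have hhc : (h : G) * rep c0.1 = rep c0.1 * h := by
    have := h.2
    rwa [Subgroup.mem_centralizer_singleton_iff] at this
  refine IsConj.symm (isConj_iff.2 ⟨h * g, ?_⟩)
  rw [← hh', hz]
  have hg' : g * x * g⁻¹ = rep c0.1 := hg
  calc (h : G) * g * (x * y) * (h * g : G)⁻¹ = (h : G) * (g * x * g⁻¹) * (g * y * g⁻¹) * (h : G)⁻¹ := by group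
    _ = (h : G) * rep c0.1 * (g * y * g⁻¹) * (h : G)⁻¹ := by rw [hg']
    _ = rep c0.1 * h * (g * y * g⁻¹) * (h : G)⁻¹ := by rw [hhc]
    _ = _ := by group

theorem card_KPi_empty {G : Type u} [Group G] [Finite G] : Nat.card (KPi ((∅ : Finset ℕ) : Set ℕ) G) ≤ 1 := by
  haveI : Fintype (KPi ((∅ : Finset ℕ) : Set ℕ) G) := Fintype.ofFinite _
  rw [Nat.card_eq_fintype_card, Fintype.card_le_one_iff]
  rintro ⟨a, ha⟩ ⟨b, hb⟩
  apply Subtype.ext
  have key : ∀ c : ConjClasses G, (∀ x ∈ c.carrier, ∀ r : ℕ, r.Prime → r ∣ orderOf x → r ∈ ((∅ : Finset ℕ) : Set ℕ)) →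
      c = ConjClasses.mk 1 := by
    intro c hc
    obtain ⟨x, rfl⟩ := ConjClasses.exists_rep c
    have : orderOf x = 1 := by
      by_contra hne
      obtain ⟨r, hr, hrx⟩ := Nat.exists_prime_and_dvd hne
      have := hc x ConjClasses.mem_carrier_mk r hr hrx
      simp at this
    rw [orderOf_eq_one_iff] at this
    rw [this]
  exact (key a ha).trans (key b hb).symm

theorem card_KPi_insert_le {G : Type u} [Group G] [Finite G] (π : Finset ℕ) (hπ : ∀ r ∈ π, r.Prime) {q : ℕ}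
    (hq : q.Prime) (hqπ : q ∉ π)
    (h : ∀ H : Subgroup G, Nat.card (KPi (π : Set ℕ) H) ≤ piPart π (Nat.card H)) :
    Nat.card (KPi ((insert q π : Finset ℕ) : Set ℕ) G) ≤ Nat.card (KP q G) * piPart π (Nat.card G) := by
  classical
  refine (exists_surj π hπ hq hqπ).trans ?_
  haveI : Fintype (KP q G) := Fintype.ofFinite _
  haveI : ∀ c : KP q G, Finite (KPi (π : Set ℕ) (Subgroup.centralizer ({rep c.1} : Set G))) := fun c => inferInstance
  rw [Nat.card_sigma]
  calc ∑ c : KP q G, Nat.card (KPi (π : Set ℕ) (Subgroup.centralizer ({rep c.1} : Set G)))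
      ≤ ∑ c : KP q G, piPart π (Nat.card G) := by
        apply Finset.sum_le_sum
        intro c _
        exact (h _).trans (piPart_le_of_dvd hπ (Subgroup.card_subgroup_dvd_card _) Nat.card_pos.ne')
    _ = _ := by rw [Finset.sum_const, Finset.card_univ, ← Nat.card_eq_fintype_card, smul_eq_mul]

theorem card_KPi_le (π : Finset ℕ) (hπ : ∀ r ∈ π, r.Prime) :
    ∀ (G : Type u) [Group G] [Finite G], Nat.card (KPi (π : Set ℕ) G) ≤ piPart π (Nat.card G) := by
  classical
  induction π using Finset.induction_on with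
  | empty => intro G _ _; exact card_KPi_empty
  | insert q π hqπ ih =>
    intro G _ _
    have hπ' : ∀ r ∈ π, r.Prime := fun r hr => hπ r (Finset.mem_insert_of_mem hr)
    have hq : q.Prime := hπ q (Finset.mem_insert_self q π)
    haveI : Fact q.Prime := ⟨hq⟩
    refine (card_KPi_insert_le π hπ' hq hqπ (fun H => ih hπ' H)).trans ?_
    have h2 : piPart (insert q π) (Nat.card G) = q ^ (Nat.card G).factorization q * piPart π (Nat.card G) := by
      rw [piPart, piPart, Finset.prod_insert hqπ]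
    rw [h2]
    apply Nat.mul_le_mul_right
    obtain ⟨P⟩ := (inferInstance : Nonempty (Sylow q G))
    rw [← P.card_eq_multiplicity]
    exact card_KP_le P

/-- `k_π(G) ≤ k_q(G) |G|_{π∖q}` for `q ∈ π`. -/
theorem card_KPi_le_of_mem {G : Type u} [Group G] [Finite G] (π : Finset ℕ) (hπ : ∀ r ∈ π, r.Prime) {q : ℕ} (hq : q ∈ π) :
    Nat.card (KPi (π : Set ℕ) G) ≤ Nat.card (KP q G) * piPart (π.erase q) (Nat.card G) := by
  classical
  have h1 : insert q (π.erase q) = π := Finset.insert_erase hq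
  have hπ' : ∀ r ∈ π.erase q, r.Prime := fun r hr => hπ r (Finset.mem_of_mem_erase hr)
  have := card_KPi_insert_le (G := G) (π.erase q) hπ' (hπ q hq) (Finset.notMem_erase q π)
    (fun H => card_KPi_le _ hπ' H)
  rwa [h1] at this

theorem piPart_eq_mul {π : Finset ℕ} {q : ℕ} (hq : q ∈ π) (n : ℕ) :
    piPart π n = q ^ n.factorization q * piPart (π.erase q) n := by
  classical
  rw [piPart, piPart, Finset.mul_prod_erase π (fun r => r ^ n.factorization r) hq]

/-- Normal `q`-complements for all `q ∈ π` intersect in a normal `π`-complement. -/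
theorem exists_normal_pi_complement {G : Type u} [Group G] [Finite G] (π : Finset ℕ) (hπ : ∀ r ∈ π, r.Prime)
    (h : ∀ q ∈ π, Cfsg.HasNormalPComplement q G) :
    ∃ (M : ℕ → Subgroup G) (N : Subgroup G), N.Normal ∧ N = ⨅ q ∈ π, M q ∧
      (∀ q ∈ π, (M q).Normal ∧ ∃ P : Sylow q G, (M q).IsComplement' (P : Subgroup G)) ∧
      (∀ r : ℕ, r.Prime → r ∣ Nat.card N → r ∉ π) ∧ (∀ r : ℕ, r.Prime → r ∣ N.index → r ∈ π) := by
  classical
  choose! P M hM hc using h
  have hN : (⨅ q ∈ π, M q).Normal := by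
    apply Subgroup.normal_iInf_normal
    intro q
    apply Subgroup.normal_iInf_normal
    intro hq
    exact hM q hq
  refine ⟨M, ⨅ q ∈ π, M q, hN, rfl, fun q hq => ⟨hM q hq, P q, hc q hq⟩, ?_, ?_⟩
  · intro r hr hrd hrπ
    haveI : Fact r.Prime := ⟨hr⟩
    have h1 : (⨅ q ∈ π, M q) ≤ M r := iInf₂_le r hrπ
    have h2 : r ∣ Nat.card (M r) := hrd.trans (Subgroup.card_dvd_of_le h1)
    rw [← (hc r hrπ).index_eq_card] at h2
    exact (P r).not_dvd_index h2
  · intro r hr hrd
    haveI : Fact r.Prime := ⟨hr⟩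
    have h0 : r ∣ Nat.card (G ⧸ (⨅ q ∈ π, M q)) := hrd
    obtain ⟨xb, hxb⟩ := exists_prime_orderOf_dvd_card' (G := G ⧸ (⨅ q ∈ π, M q)) r h0
    obtain ⟨x, rfl⟩ := QuotientGroup.mk_surjective xb
    have hx1 : x ∉ (⨅ q ∈ π, M q) := by
      intro hx
      rw [(QuotientGroup.eq_one_iff x).2 hx, orderOf_one] at hxb
      exact hr.one_lt.ne hxb
    have hx2 : x ^ r ∈ (⨅ q ∈ π, M q) := by
      rw [← QuotientGroup.eq_one_iff, QuotientGroup.mk_pow, ← hxb, pow_orderOf_eq_one]
    simp only [Subgroup.mem_iInf, not_forall] at hx1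
    obtain ⟨q, hq, hxq⟩ := hx1
    have hxr : x ^ r ∈ M q := by
      simp only [Subgroup.mem_iInf] at hx2
      exact hx2 q hq
    haveI := hM q hq
    haveI : Fact q.Prime := ⟨hπ q hq⟩
    have h3 : orderOf (QuotientGroup.mk x : G ⧸ M q) ∣ r := by
      apply orderOf_dvd_of_pow_eq_one
      rw [← QuotientGroup.mk_pow, QuotientGroup.eq_one_iff]
      exact hxr
    rcases (Nat.dvd_prime hr).1 h3 with h4 | h4
    · rw [orderOf_eq_one_iff, QuotientGroup.eq_one_iff] at h4
      exact absurd h4 hxq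
    · have h5 : orderOf (QuotientGroup.mk x : G ⧸ M q) ∣ (M q).index := orderOf_dvd_natCard _
      rw [(hc q hq).symm.index_eq_card, h4] at h5
      obtain ⟨n, hn⟩ := IsPGroup.iff_card.1 (P q).isPGroup'
      rw [hn] at h5
      have := (Nat.prime_dvd_prime_iff_eq hr (hπ q hq)).1 (hr.dvd_of_dvd_pow h5)
      rw [this]; exact hq

/-- In a group with a normal `q`-complement and abelian Sylow `q`-subgroup the complement contains
all commutators. -/
theorem commutator_mem {G : Type u} [Group G] (M P : Subgroup G) [M.Normal] (hc : M.IsComplement' P)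
    (hab : IsMulCommutative P) (x y : G) : x * y * x⁻¹ * y⁻¹ ∈ M := by
  have key : ∀ g : G, ∃ s ∈ P, (QuotientGroup.mk g : G ⧸ M) = QuotientGroup.mk s := by
    intro g
    have htop : g ∈ M ⊔ P := by rw [hc.sup_eq_top]; exact Subgroup.mem_top g
    rw [Subgroup.mem_sup_of_normal_left] at htop
    obtain ⟨n, hn, s, hs, rfl⟩ := htop
    refine ⟨s, hs, ?_⟩
    rw [QuotientGroup.mk_mul, (QuotientGroup.eq_one_iff n).2 hn, one_mul]
  obtain ⟨s, hs, h1⟩ := key x
  obtain ⟨t, ht, h2⟩ := key y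
  rw [← QuotientGroup.eq_one_iff]
  simp only [QuotientGroup.mk_mul, QuotientGroup.mk_inv, h1, h2]
  rw [← QuotientGroup.mk_inv, ← QuotientGroup.mk_inv, ← QuotientGroup.mk_mul, ← QuotientGroup.mk_mul, ← QuotientGroup.mk_mul]
  have h3 : s * t = t * s := congrArg Subtype.val (hab.is_comm.comm (⟨s, hs⟩ : P) ⟨t, ht⟩)
  have h4 : s * t * s⁻¹ * t⁻¹ = 1 := by rw [h3]; group
  rw [h4, QuotientGroup.mk_one]

end CfsgLib.PiClasses
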