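import Cfsg.Agent.LibPm9

set_option autoImplicit false

/-! Sylow 2-subgroups of `SL_{2^w}(q)`, `q` odd (seat helper26). -/

namespace CfsgLib.Pm

open Matrix CfsgLib.FgSub Cfsg

variable {F : Type*} [Field F]

/-- reindexing isomorphism of `GL` -/
def rx {ι κ : Type*} [Fintype ι] [DecidableEq ι] [Fintype κ] [DecidableEq κ] (e : ι ≃ κ) : GL ι F ≃* GL κ F :=
  Units.mapEquiv (Matrix.reindexAlgEquiv F F e).toMulEquiv

theorem rx_val {ι κ : Type*} [Fintype ι] [DecidableEq ι] [Fintype κ] [DecidableEq κ] (e : ι ≃ κ) (g : GL ι F) :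
    ((rx e g : GL κ F) : Matrix κ κ F) = (g : Matrix ι ι F).submatrix e.symm e.symm := rfl

theorem rx_det {ι κ : Type*} [Fintype ι] [DecidableEq ι] [Fintype κ] [DecidableEq κ] (e : ι ≃ κ) (g : GL ι F) :
    ((rx e g : GL κ F) : Matrix κ κ F).det = (g : Matrix ι ι F).det := by
  rw [rx_val, det_submatrix_equiv_self]

/-- the second property -/
def PB {ι : Type*} [Fintype ι] [DecidableEq ι] (Y : Subgroup (GL ι F)) : Prop :=
  ∀ g : GL ι F, cj g (Y ⊓ DD ι F) = Y ⊓ DD ι F → ∃ x ∈ Y, ∃ c : F, (g : Matrix ι ι F) = c • (x : Matrix ι ι F)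

theorem mem_map_rx {ι κ : Type*} [Fintype ι] [DecidableEq ι] [Fintype κ] [DecidableEq κ] (e : ι ≃ κ) (Y : Subgroup (GL ι F)) (g : GL ι F) :
    rx e g ∈ Y.map (rx e).toMonoidHom ↔ g ∈ Y := by
  constructor
  · rintro ⟨x, hx, h⟩
    have : x = g := (rx e).injective h
    rwa [← this]
  · intro h
    exact ⟨g, h, rfl⟩

theorem cj_map_rx {ι κ : Type*} [Fintype ι] [DecidableEq ι] [Fintype κ] [DecidableEq κ] (e : ι ≃ κ) (Y : Subgroup (GL ι F)) (g : GL ι F) :
    cj (rx e g) (Y.map (rx e).toMonoidHom) = Y.map (rx e).toMonoidHom ↔ cj g Y = Y := by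
  constructor
  · intro h
    ext y
    rw [mem_cj, ← mem_map_rx e Y y, ← mem_map_rx e Y (g⁻¹ * y * g), map_mul, map_mul, map_inv, ← mem_cj, h]
  · intro h
    ext y
    obtain ⟨y, rfl⟩ := (rx e).surjective y
    rw [mem_cj, ← map_inv, ← map_mul, ← map_mul, mem_map_rx, mem_map_rx, ← mem_cj, h]

theorem map_rx_inf {ι κ : Type*} [Fintype ι] [DecidableEq ι] [Fintype κ] [DecidableEq κ] (e : ι ≃ κ) (Y : Subgroup (GL ι F)) :
    Y.map (rx e).toMonoidHom ⊓ DD κ F = (Y ⊓ DD ι F).map (rx e).toMonoidHom := by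
  ext y
  obtain ⟨y, rfl⟩ := (rx e).surjective y
  rw [Subgroup.mem_inf, mem_map_rx, mem_map_rx, Subgroup.mem_inf, mem_DD, mem_DD, rx_det]

theorem PS_rx {ι κ : Type*} [Fintype ι] [DecidableEq ι] [Fintype κ] [DecidableEq κ] (e : ι ≃ κ) {Y : Subgroup (GL ι F)} (P : PS Y) :
    PS (Y.map (rx e).toMonoidHom) := by
  refine ⟨P.two.map _, ?_, ?_, ?_⟩
  · have : (Y.map (rx e).toMonoidHom).index = Y.index := Subgroup.index_map_equiv Y (rx e)
    rw [this]
    exact P.odd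
  · intro g hg
    obtain ⟨g, rfl⟩ := (rx e).surjective g
    rw [cj_map_rx] at hg
    obtain ⟨x, hx, c, hc⟩ := P.nrm g hg
    refine ⟨rx e x, (mem_map_rx e Y x).2 hx, c, ?_⟩
    rw [rx_val, rx_val, hc]
    rfl
  · intro L hL
    obtain ⟨c, hc⟩ := P.irr (L.submatrix e e) (by
      intro x hx hxd
      have h1 := hL (rx e x) ((mem_map_rx e Y x).2 hx) (by rw [rx_det]; exact hxd)
      rw [rx_val] at h1
      have hx' : (x : Matrix ι ι F) = ((x : Matrix ι ι F).submatrix e.symm e.symm).submatrix e e := by simp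
      rw [hx', submatrix_mul_equiv, submatrix_mul_equiv, h1])
    refine ⟨c, ?_⟩
    have h3 := congrArg (fun A : Matrix ι ι F => A.submatrix e.symm e.symm) hc
    simp only [submatrix_submatrix, Equiv.self_comp_symm, submatrix_id_id] at h3
    rw [h3, submatrix_smul]
    simp

theorem PB_rx {ι κ : Type*} [Fintype ι] [DecidableEq ι] [Fintype κ] [DecidableEq κ] (e : ι ≃ κ) {Y : Subgroup (GL ι F)} (P : PB Y) :
    PB (Y.map (rx e).toMonoidHom) := by
  intro g hg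
  obtain ⟨g, rfl⟩ := (rx e).surjective g
  rw [map_rx_inf, cj_map_rx] at hg
  obtain ⟨x, hx, c, hc⟩ := P g hg
  refine ⟨rx e x, (mem_map_rx e Y x).2 hx, c, ?_⟩
  rw [rx_val, rx_val, hc]
  rfl

theorem two_ne [Fintype F] (hq : Odd (Fintype.card F)) : (2 : F) ≠ 0 := by
  intro h
  have h3 : (ringChar F) ∣ 2 := by
    rw [← ringChar.spec]
    exact_mod_cast h
  obtain ⟨n, hp, hn⟩ := FiniteField.card F (ringChar F)
  have h4 : ringChar F = 2 := (Nat.prime_dvd_prime_iff_eq hp Nat.prime_two).1 h3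
  rw [hn, h4] at hq
  have : Even (2 ^ (n : ℕ)) := (even_two).pow_of_ne_zero n.ne_zero
  exact (Nat.not_even_iff_odd.2 hq) this

theorem PS_all [Fintype F] (hq : Odd (Fintype.card F)) (j : ℕ) :
    ∃ Y : Subgroup (GL (Fin (2 ^ (j + 1))) F), PS Y ∧ (1 ≤ j → PB Y) := by
  induction j with
  | zero =>
    obtain ⟨δ, hδ, X, hX, -⟩ := exists_base F hq
    refine ⟨X.map (rx (finCongr (by norm_num))).toMonoidHom, PS_rx _ hX.ps, fun h => absurd h (by norm_num)⟩
  | succ j ih =>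
    obtain ⟨Y, hY, -⟩ := ih
    obtain ⟨Z, hZ, hB⟩ := PS_step hY hq (two_ne hq) (j := j + 1) (by omega) (Fintype.card_fin _)
    refine ⟨Z.map (rx (finSumFinEquiv.trans (finCongr (by rw [pow_succ 2 (j + 1)]; ring)))).toMonoidHom, PS_rx _ hZ, fun _ => PB_rx _ hB⟩

/-- Sylow subgroup of `SL` from one of `GL` -/
theorem odd_comap {ι : Type*} [Fintype ι] [DecidableEq ι] [Finite F] {Y : Subgroup (GL ι F)} (h : ¬ 2 ∣ Y.index) :
    ¬ 2 ∣ (Y.comap (Matrix.SpecialLinearGroup.toGL : SpecialLinearGroup ι F →* GL ι F)).index := by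
  have hr : (Matrix.SpecialLinearGroup.toGL : SpecialLinearGroup ι F →* GL ι F).range = DD ι F := by
    ext g
    rw [mem_DD]
    constructor
    · rintro ⟨x, rfl⟩
      exact x.2
    · intro h
      exact ⟨⟨g, h⟩, Units.ext rfl⟩
  rw [Subgroup.index_comap, hr]
  intro h2
  apply h
  have e1 : Y.relIndex (Y ⊔ DD ι F) = Y.relIndex (DD ι F) := by
    have e2 := Subgroup.relIndex_mul_relIndex (Y ⊓ DD ι F) Y (Y ⊔ DD ι F) inf_le_left le_sup_left
    have e3 := Subgroup.relIndex_mul_relIndex (Y ⊓ DD ι F) (DD ι F) (Y ⊔ DD ι F) inf_le_right le_sup_right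
    rw [Subgroup.relIndex_sup_right, Subgroup.inf_relIndex_right, ← e2, Subgroup.inf_relIndex_left, mul_comm] at e3
    have h0 : (DD ι F).relIndex Y ≠ 0 := by
      unfold Subgroup.relIndex
      exact Subgroup.index_ne_zero_of_finite
    exact (Nat.eq_of_mul_eq_mul_left (Nat.pos_of_ne_zero h0) e3).symm
  rw [← e1] at h2
  exact h2.trans (Subgroup.relIndex_dvd_index_of_le le_sup_left)

theorem two_comap {ι : Type*} [Fintype ι] [DecidableEq ι] {Y : Subgroup (GL ι F)} (h : IsPGroup 2 Y) :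
    IsPGroup 2 (Y.comap (Matrix.SpecialLinearGroup.toGL : SpecialLinearGroup ι F →* GL ι F)) := by
  rintro ⟨x, hx⟩
  obtain ⟨k, hk⟩ := h ⟨_, hx⟩
  refine ⟨k, Subtype.ext ?_⟩
  have h1 := congrArg Subtype.val hk
  have h2 : (x.toGL) ^ 2 ^ k = 1 := h1
  rw [← map_pow] at h2
  have h3 : x ^ 2 ^ k = 1 := by
    apply Matrix.SpecialLinearGroup.toGL_injective
    rw [h2, map_one]
  exact h3

theorem cj_comap {ι : Type*} [Fintype ι] [DecidableEq ι] {Y : Subgroup (GL ι F)} {n : SpecialLinearGroup ι F}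
    (h : cj n (Y.comap (Matrix.SpecialLinearGroup.toGL : SpecialLinearGroup ι F →* GL ι F)) = Y.comap Matrix.SpecialLinearGroup.toGL) :
    cj (n.toGL) (Y ⊓ DD ι F) = Y ⊓ DD ι F := by
  ext y
  rw [mem_cj]
  have key : ∀ x : SpecialLinearGroup ι F, n.toGL⁻¹ * x.toGL * n.toGL ∈ Y ↔ x.toGL ∈ Y := by
    intro x
    have h1 : x ∈ cj n (Y.comap (Matrix.SpecialLinearGroup.toGL : SpecialLinearGroup ι F →* GL ι F)) ↔
        x ∈ Y.comap (Matrix.SpecialLinearGroup.toGL : SpecialLinearGroup ι F →* GL ι F) := by rw [h]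
    rw [mem_cj, Subgroup.mem_comap, Subgroup.mem_comap, map_mul, map_mul, map_inv] at h1
    exact h1
  rw [Subgroup.mem_inf, Subgroup.mem_inf]
  have hD : n.toGL⁻¹ * y * n.toGL ∈ DD ι F ↔ y ∈ DD ι F := by
    constructor
    · intro h1
      have := Subgroup.Normal.conj_mem inferInstance _ h1 n.toGL
      have e : n.toGL * (n.toGL⁻¹ * y * n.toGL) * n.toGL⁻¹ = y := by group
      rwa [e] at this
    · intro h1
      have := Subgroup.Normal.conj_mem inferInstance _ h1 n.toGL⁻¹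
      rwa [inv_inv] at this
  constructor
  · rintro ⟨h1, h2⟩
    have h3 := hD.1 h2
    obtain ⟨x, hx⟩ : ∃ x : SpecialLinearGroup ι F, x.toGL = y := ⟨⟨y, mem_DD.1 h3⟩, Units.ext rfl⟩
    rw [← hx] at h1 h3 ⊢
    exact ⟨(key x).1 h1, h3⟩
  · rintro ⟨h1, h3⟩
    have h2 := hD.2 h3
    obtain ⟨x, hx⟩ : ∃ x : SpecialLinearGroup ι F, x.toGL = y := ⟨⟨y, mem_DD.1 h3⟩, Units.ext rfl⟩
    rw [← hx] at h1 h2 ⊢
    exact ⟨(key x).2 h1, h2⟩

end CfsgLib.Pm
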