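import Cfsg.Agent.LibPm8

set_option autoImplicit false

/-! Pronormality of overgroups of a Sylow Klein four-group, II (seat helper26). -/

namespace CfsgLib.Pm

open CfsgLib.FgSub CfsgLib.H7Pron Cfsg
open scoped Pointwise

variable {G : Type*} [Group G] [Finite G]

theorem cj_eq_of_le {g : G} {H : Subgroup G} (h : cj g H ≤ H) : cj g H = H := by
  apply Subgroup.eq_of_le_of_card_ge h
  rw [card_cj]

/-- two maximal `r`-subgroups of `K` are conjugate in `K` -/
theorem conj_max {r : ℕ} [Fact r.Prime] {K P Q : Subgroup G} (hP : P ≤ K) (hQ : Q ≤ K) (hPr : IsPGroup r P) (hQr : IsPGroup r Q)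
    (hPm : ∀ R : Subgroup G, IsPGroup r R → R ≤ K → P ≤ R → R ≤ P) (hQm : ∀ R : Subgroup G, IsPGroup r R → R ≤ K → Q ≤ R → R ≤ Q) :
    ∃ x ∈ K, cj x P = Q := by
  have key : ∀ P : Subgroup G, P ≤ K → IsPGroup r P → (∀ R : Subgroup G, IsPGroup r R → R ≤ K → P ≤ R → R ≤ P) →
      ∃ S : Sylow r K, (S : Subgroup K).map K.subtype = P := by
    intro P hP hPr hPm
    have h1 : IsPGroup r (P.subgroupOf K) := hPr.comap_subtype
    obtain ⟨S, hS⟩ := h1.exists_le_sylow
    refine ⟨S, le_antisymm (hPm _ (S.isPGroup'.map _) (Subgroup.map_subtype_le _) ?_) ?_⟩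
    · intro x hx
      exact ⟨⟨x, hP hx⟩, hS hx, rfl⟩
    · intro x hx
      exact ⟨⟨x, hP hx⟩, hS hx, rfl⟩
  obtain ⟨S, hS⟩ := key P hP hPr hPm
  obtain ⟨T, hT⟩ := key Q hQ hQr hQm
  obtain ⟨x, hx⟩ := MulAction.exists_smul_eq K S T
  refine ⟨x, x.2, ?_⟩
  have h1 : ∀ z : K, z ∈ (x • S : Sylow r K) ↔ x⁻¹ * z * x ∈ S := by
    intro z
    rw [Sylow.smul_def]
    change z ∈ (MulAut.conj x • (S : Subgroup K)) ↔ _
    rw [Subgroup.mem_pointwise_smul_iff_inv_smul_mem]
    simp [MulAut.smul_def]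
    rfl
  rw [← hS, ← hT, ← hx]
  ext y
  rw [mem_cj]
  constructor
  · rintro ⟨z, hz, hzy⟩
    refine ⟨x * z * x⁻¹, ?_, ?_⟩
    · rw [SetLike.mem_coe]
      change _ ∈ (x • S : Sylow r K)
      rw [h1]
      have e : x⁻¹ * (x * z * x⁻¹) * x = z := by group
      rw [e]
      exact hz
    · simp only [Subgroup.coe_subtype, Subgroup.coe_mul, Subgroup.coe_inv] at hzy ⊢
      rw [hzy]
      group
  · rintro ⟨z, hz, rfl⟩
    refine ⟨x⁻¹ * z * x, (h1 z).1 hz, ?_⟩
    simp

/-- the dihedral trick -/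
theorem K4.trick {E : Sylow 2 G} {a b : G} (h : K4 E a b) {H : Subgroup G} (hEH : (E : Subgroup G) ≤ H)
    (hN : ∀ g ∈ H, cj g (E : Subgroup G) = E → g ∈ E)
    (hC : ∀ v ∈ E, v ≠ 1 → ∀ x ∈ H, x * v = v * x → x ∈ E) : H ≤ E := by
  have hF : ∀ v ∈ E, v ≠ 1 → ∀ g ∈ H, g * v * g⁻¹ ∈ E → g * v * g⁻¹ = v := by
    intro v hv hv1 g hg hw
    have hw1 : g * v * g⁻¹ ≠ 1 := by
      intro h0
      exact hv1 (by simpa [mul_inv_eq_one] using h0)
    have h1 : cj g (E : Subgroup G) ≤ E := by
      intro y hy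
      rw [mem_cj] at hy
      have hyH : y ∈ H := by
        have := H.mul_mem (H.mul_mem hg (hEH hy)) (H.inv_mem hg)
        have e : g * (g⁻¹ * y * g) * g⁻¹ = y := by group
        rwa [e] at this
      apply hC _ hw hw1 y hyH
      have h2 : (g⁻¹ * y * g) * v = v * (g⁻¹ * y * g) := h.comm hy hv
      calc y * (g * v * g⁻¹) = g * ((g⁻¹ * y * g) * v) * g⁻¹ := by group
        _ = g * (v * (g⁻¹ * y * g)) * g⁻¹ := by rw [h2]
        _ = g * v * g⁻¹ * y := by group
    have h2 := hN g hg (cj_eq_of_le h1)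
    rw [h.comm h2 hv]
    group
  intro g hg
  have ha : a ∈ E := (h.mem a).2 (by simp)
  have hb : b ∈ E := (h.mem b).2 (by simp)
  have haH := hEH ha
  have hbH := hEH hb
  set t := g * b * g⁻¹ with ht
  have htH : t ∈ H := H.mul_mem (H.mul_mem hg hbH) (H.inv_mem hg)
  have htt : t * t = 1 := by
    rw [ht]
    have : g * b * g⁻¹ * (g * b * g⁻¹) = g * (b * b) * g⁻¹ := by group
    rw [this, h.bb]
    group
  have haa := h.aa
  have hcH : a * t ∈ H := H.mul_mem haH htH
  have hinv : ∀ k : ℕ, a * (a * t) ^ k * a = ((a * t) ^ k)⁻¹ := by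
    intro k
    have h1 : a⁻¹ = a := inv_eq_of_mul_eq_one_right haa
    have h2 : t⁻¹ = t := inv_eq_of_mul_eq_one_right htt
    have h3 : a * (a * t) * a⁻¹ = (a * t)⁻¹ := by
      rw [h1, mul_inv_rev, h1, h2, ← mul_assoc, haa, one_mul]
    calc a * (a * t) ^ k * a = a * (a * t) ^ k * a⁻¹ := by rw [h1]
      _ = (a * (a * t) * a⁻¹) ^ k := by rw [conj_pow]
      _ = _ := by rw [h3, inv_pow]
  have htE : t ∈ E := by
    rcases Nat.even_or_odd' (orderOf (a * t)) with ⟨k, hk | hk⟩
    · -- even order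
      have hk0 : 0 < k := by
        have := orderOf_pos (a * t)
        omega
      have hz1 : (a * t) ^ k ≠ 1 := by
        intro h0
        have := Nat.le_of_dvd hk0 (orderOf_dvd_of_pow_eq_one h0)
        omega
      have hzz : (a * t) ^ k * (a * t) ^ k = 1 := by
        rw [← pow_add, ← two_mul, ← hk, pow_orderOf_eq_one]
      have hzi : ((a * t) ^ k)⁻¹ = (a * t) ^ k := inv_eq_of_mul_eq_one_right hzz
      have hza : (a * t) ^ k * a = a * (a * t) ^ k := by
        have := hinv k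
        rw [hzi] at this
        have h4 := congrArg (a * ·) this
        simp only [← mul_assoc, haa, one_mul] at h4
        exact h4
      have hzE : (a * t) ^ k ∈ E := hC a ha h.a1 _ (H.pow_mem hcH k) hza
      apply hC _ hzE hz1 t htH
      have h5 : (a * t) * (a * t) ^ k = (a * t) ^ k * (a * t) := (Commute.refl (a * t)).pow_right k
      have h6 : a * (t * (a * t) ^ k) = a * ((a * t) ^ k * t) := by
        rw [← mul_assoc, h5, ← mul_assoc, hza, mul_assoc]
      exact mul_left_cancel h6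
    · -- odd order: conjugate to `a`
      exfalso
      set d := (a * t) ^ (k + 1) with hd
      have hdd : d * d = a * t := by
        rw [hd, ← pow_add, show k + 1 + (k + 1) = (2 * k + 1) + 1 by ring, pow_succ, ← hk, pow_orderOf_eq_one, one_mul]
      have hda : a * d * a = d⁻¹ := hinv (k + 1)
      have h5 : d⁻¹ * a * d = t := by
        rw [← hda]
        have : a * d * a * a * d = a * d * (a * a) * d := by group
        rw [this, haa]
        have : a * d * 1 * d = a * (d * d) := by group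
        rw [this, hdd, ← mul_assoc, haa, one_mul]
      have hdH : d ∈ H := H.pow_mem hcH _
      have h6 : (d * g) * b * (d * g)⁻¹ = a := by
        have : (d * g) * b * (d * g)⁻¹ = d * t * d⁻¹ := by rw [ht]; group
        rw [this, ← h5]
        group
      have := hF b hb h.b1 (d * g) (H.mul_mem hdH hg) (by rw [h6]; exact ha)
      rw [h6] at this
      exact h.ne this
  have h7 := hF b hb h.b1 g hg htE
  apply hC b hb h.b1 g hg
  have := congrArg (· * g) h7
  simpa using this

end CfsgLib.Pm
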