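import Cfsg.Agent.LibPm11

set_option autoImplicit false

/-! Pronormality of overgroups of a Sylow Klein four-group, III (seat helper26). -/

namespace CfsgLib.Pm

open CfsgLib.FgSub CfsgLib.H7Pron Cfsg
open scoped Pointwise

variable {G : Type*} [Group G] [Finite G]

/-- hypotheses on centralizers of elements of `E` -/
structure KC (E : Sylow 2 G) : Prop where
  comm : ∀ v ∈ E, v ≠ 1 → ∀ x y : G, x * v = v * x → y * v = v * y → Odd (orderOf x) → Odd (orderOf y) → x * y = y * x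
  fix : ∀ v ∈ E, v ≠ 1 → ∀ x : G, x ≠ 1 → Odd (orderOf x) → x * v = v * x → ∀ g : G, (g * x * g⁻¹) * v = v * (g * x * g⁻¹) →
    g * v * g⁻¹ = v

theorem odd_order_of_pow {r : ℕ} (hr : r.Prime) (hr2 : r ≠ 2) {x : G} {k : ℕ} (hk : x ^ r ^ k = 1) : Odd (orderOf x) := by
  obtain ⟨m, -, hm⟩ := (Nat.dvd_prime_pow hr).1 (orderOf_dvd_of_pow_eq_one hk)
  rw [hm]
  exact (hr.odd_of_ne_two hr2).pow

/-- the `r`-elements of `C_K(v)` -/
def RP {E : Sylow 2 G} (hc : KC E) {r : ℕ} (hr : r.Prime) (hr2 : r ≠ 2) (K : Subgroup G) {v : G} (hv : v ∈ E) (hv1 : v ≠ 1) : Subgroup G where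
  carrier := {x | x ∈ K ∧ x * v = v * x ∧ ∃ k, x ^ r ^ k = 1}
  one_mem' := ⟨K.one_mem, by simp, 0, by simp⟩
  mul_mem' := by
    rintro x y ⟨hx, hxv, k, hk⟩ ⟨hy, hyv, l, hl⟩
    have hxy : x * y = y * x := hc.comm v hv hv1 x y hxv hyv (odd_order_of_pow hr hr2 hk) (odd_order_of_pow hr hr2 hl)
    refine ⟨K.mul_mem hx hy, ?_, k + l, ?_⟩
    · rw [mul_assoc, hyv, ← mul_assoc, hxv, mul_assoc]
    · have h1 : Commute x y := hxy
      rw [h1.mul_pow, pow_add, pow_mul, hk, one_pow, one_mul, mul_comm, pow_mul, hl, one_pow]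
  inv_mem' := by
    rintro x ⟨hx, hxv, k, hk⟩
    refine ⟨K.inv_mem hx, ?_, k, by rw [inv_pow, hk, inv_one]⟩
    rw [inv_mul_eq_iff_eq_mul, ← mul_assoc, hxv, mul_assoc, mul_inv_cancel, mul_one]

theorem mem_RP {E : Sylow 2 G} {hc : KC E} {r : ℕ} {hr : r.Prime} {hr2 : r ≠ 2} {K : Subgroup G} {v : G} {hv : v ∈ E} {hv1 : v ≠ 1}
    {x : G} : x ∈ RP hc hr hr2 K hv hv1 ↔ x ∈ K ∧ x * v = v * x ∧ ∃ k, x ^ r ^ k = 1 := Iff.rfl

theorem RP_max {E : Sylow 2 G} (hc : KC E) {r : ℕ} (hr : r.Prime) (hr2 : r ≠ 2) (K : Subgroup G) {v : G} (hv : v ∈ E) (hv1 : v ≠ 1)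
    {x : G} (hx : x ∈ RP hc hr hr2 K hv hv1) (hx1 : x ≠ 1) (R : Subgroup G) (hR : IsPGroup r R) (hRK : R ≤ K)
    (hle : RP hc hr hr2 K hv hv1 ≤ R) : R ≤ RP hc hr hr2 K hv hv1 := by
  haveI : Fact r.Prime := ⟨hr⟩
  haveI : Nontrivial R := ⟨⟨⟨x, hle hx⟩, 1, fun h => hx1 (congrArg Subtype.val h)⟩⟩
  have hz := hR.center_nontrivial
  obtain ⟨⟨⟨z, hzR⟩, hzc⟩, hz1⟩ := exists_ne (1 : Subgroup.center R)
  have hz1' : z ≠ 1 := by
    rintro rfl
    exact hz1 rfl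
  rw [Subgroup.mem_center_iff] at hzc
  have hcomm : ∀ g ∈ R, g * z = z * g := fun g hg => congrArg Subtype.val (hzc ⟨g, hg⟩)
  obtain ⟨hxK, hxv, k, hk⟩ := hx
  obtain ⟨l, hl⟩ := hR ⟨z, hzR⟩
  have hl' : z ^ r ^ l = 1 := congrArg Subtype.val hl
  have hzv : z * v = v * z := by
    have h1 := hc.fix v hv hv1 x hx1 (odd_order_of_pow hr hr2 hk) hxv z (by
      have : z * x * z⁻¹ = x := by
        rw [← hcomm x (hle ⟨hxK, hxv, k, hk⟩)]; group
      rw [this, hxv])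
    have := congrArg (· * z) h1
    simpa using this
  intro g hg
  obtain ⟨m, hm⟩ := hR ⟨g, hg⟩
  have hm' : g ^ r ^ m = 1 := congrArg Subtype.val hm
  refine ⟨hRK hg, ?_, m, hm'⟩
  have h1 := hc.fix v hv hv1 z hz1' (odd_order_of_pow hr hr2 hl') hzv g (by
    have : g * z * g⁻¹ = z := by
      rw [hcomm g hg]; group
    rw [this, hzv])
  have := congrArg (· * g) h1
  simpa using this

theorem RP_pgroup {E : Sylow 2 G} (hc : KC E) {r : ℕ} (hr : r.Prime) (hr2 : r ≠ 2) (K : Subgroup G) {v : G} (hv : v ∈ E) (hv1 : v ≠ 1) :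
    IsPGroup r (RP hc hr hr2 K hv hv1) := by
  rintro ⟨x, hx, hxv, k, hk⟩
  exact ⟨k, Subtype.ext hk⟩

theorem RP_conj {E : Sylow 2 G} {a b : G} (h : K4 E a b) (hc : KC E) {r : ℕ} (hr : r.Prime) (hr2 : r ≠ 2) (K : Subgroup G) {v : G} (hv : v ∈ E)
    (hv1 : v ≠ 1) (hEK : (E : Subgroup G) ≤ K) {e : G} (he : e ∈ E) : cj e (RP hc hr hr2 K hv hv1) = RP hc hr hr2 K hv hv1 := by
  apply cj_eq_of_le
  intro y hy
  rw [mem_cj] at hy
  obtain ⟨h1, h2, k, hk⟩ := hy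
  have heK := hEK he
  have hev := h.comm he hv
  refine ⟨?_, ?_, k, ?_⟩
  · have := K.mul_mem (K.mul_mem heK h1) (K.inv_mem heK)
    have e1 : e * (e⁻¹ * y * e) * e⁻¹ = y := by group
    rwa [e1] at this
  · have hev' : e⁻¹ * v = v * e⁻¹ := by
      rw [inv_mul_eq_iff_eq_mul, ← mul_assoc, hev, mul_assoc, mul_inv_cancel, mul_one]
    calc y * v = e * (e⁻¹ * y * e) * (e⁻¹ * v) := by group
      _ = e * ((e⁻¹ * y * e) * v) * e⁻¹ := by rw [hev']; group
      _ = e * (v * (e⁻¹ * y * e)) * e⁻¹ := by rw [h2]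
      _ = (e * v) * (e⁻¹ * y) := by group
      _ = v * y := by rw [hev]; group
  · have e1 : y = e * (e⁻¹ * y * e) * e⁻¹ := by group
    rw [e1, conj_pow, hk]
    group

/-- the main result: overgroups of `E` are pronormal -/
theorem K4.pron {E : Sylow 2 G} {a b : G} (h : K4 E a b) (hc : KC E) {H : Subgroup G} (hEH : (E : Subgroup G) ≤ H) : IsPronormal H := by
  haveI : Fact (Nat.Prime 2) := ⟨Nat.prime_two⟩
  apply pron_aux E hEH
  intro n hn
  by_cases hnK : n ∈ H ⊔ cj n H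
  · exact ⟨n, hnK, rfl⟩
  set K := H ⊔ cj n H with hK
  have hHK : H ≤ K := le_sup_left
  have hEK : (E : Subgroup G) ≤ K := hEH.trans hHK
  have hnE : n ∉ E := fun h0 => hnK (hEK h0)
  have hself : ∀ g ∈ K, cj g (E : Subgroup G) = E → g ∈ E := by
    intro g hg hgE
    by_contra h0
    exact hnK (h.all hEK hgE hg h0 hn)
  suffices hHE : H ≤ E by
    have e1 : H = E := le_antisymm hHE hEH
    refine ⟨1, K.one_mem, ?_⟩
    rw [e1, hn, cj_eq_of_mem (Subgroup.one_mem _)]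
  by_contra hne
  -- an element outside `E` centralizing some `v`
  obtain ⟨v, hv, hv1, x, hxH, hxv, hxE⟩ : ∃ v ∈ E, v ≠ 1 ∧ ∃ x ∈ H, x * v = v * x ∧ x ∉ E := by
    by_contra h0
    push Not at h0
    exact hne (h.trick hEH (fun g hg => hself g (hHK hg)) h0)
  -- an element of odd prime order in `C_H(v)`
  obtain ⟨r, hr, hr2, y, hyH, hyv, hyo⟩ : ∃ r : ℕ, r.Prime ∧ r ≠ 2 ∧ ∃ y ∈ H, y * v = v * y ∧ orderOf y = r := by
    by_contra h0
    push Not at h0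
    let C : Subgroup G := H ⊓ Subgroup.centralizer {v}
    have hEC : (E : Subgroup G) ≤ C := by
      intro e he
      exact ⟨hEH he, (Subgroup.mem_centralizer_singleton_iff).2 (h.comm he hv)⟩
    have hC2 : IsPGroup 2 C := by
      apply IsPGroup.iff_card.2
      have h5 : ∀ p : ℕ, p.Prime → p ∣ Nat.card C → p = 2 := by
        intro p hp hpd
        haveI : Fact p.Prime := ⟨hp⟩
        obtain ⟨⟨y, hyC⟩, hy⟩ := exists_prime_orderOf_dvd_card' p hpd
        by_contra hp2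
        rw [Subgroup.orderOf_mk] at hy
        exact h0 p hp hp2 y hyC.1 ((Subgroup.mem_centralizer_singleton_iff).1 hyC.2) hy
      exact ⟨_, Nat.eq_prime_pow_of_unique_prime_dvd Nat.card_pos.ne' (fun {d} hd hdd => h5 d hd hdd)⟩
    have h6 := E.is_maximal' hC2 hEC
    apply hxE
    have : x ∈ C := ⟨hxH, (Subgroup.mem_centralizer_singleton_iff).2 hxv⟩
    rw [h6] at this
    exact this
  haveI : Fact r.Prime := ⟨hr⟩
  have hy1 : y ≠ 1 := by
    rintro rfl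
    rw [orderOf_one] at hyo
    exact hr.one_lt.ne hyo
  have hyr : y ^ r ^ 1 = 1 := by rw [pow_one, ← hyo, pow_orderOf_eq_one]
  set w := n * v * n⁻¹ with hw
  have hwE : w ∈ E := (cj_mem_iff' hn).2 hv
  have hw1 : w ≠ 1 := by
    intro h0
    exact hv1 (by simpa [hw, mul_inv_eq_one] using h0)
  have hwv : w ≠ v := h.move hn hnE hv hv1
  have hyP : y ∈ RP hc hr hr2 K hv hv1 := ⟨hHK hyH, hyv, 1, hyr⟩
  have hyQ : n * y * n⁻¹ ∈ RP hc hr hr2 K hwE hw1 := by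
    refine ⟨(le_sup_right : cj n H ≤ K) (conj_mem_cj hyH), ?_, 1, ?_⟩
    · calc n * y * n⁻¹ * w = n * (y * v) * n⁻¹ := by rw [hw]; group
        _ = n * (v * y) * n⁻¹ := by rw [hyv]
        _ = w * (n * y * n⁻¹) := by rw [hw]; group
    · rw [conj_pow, hyr]; group
  have hyQ1 : n * y * n⁻¹ ≠ 1 := by
    intro h0
    exact hy1 (by simpa [mul_inv_eq_one] using h0)
  have hPK : RP hc hr hr2 K hv hv1 ≤ K := fun z hz => hz.1
  have hQK : RP hc hr hr2 K hwE hw1 ≤ K := fun z hz => hz.1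
  obtain ⟨g, hgK, hg⟩ := conj_max hPK hQK (RP_pgroup _ _ _ _ _ _) (RP_pgroup _ _ _ _ _ _)
    (fun R => RP_max hc hr hr2 K hv hv1 hyP hy1 R) (fun R => RP_max hc hr hr2 K hwE hw1 hyQ hyQ1 R)
  -- both `E` and `cj g E` normalize `Q`
  have hgS : ((g • E : Sylow 2 G) : Subgroup G) = cj g (E : Subgroup G) := by
    ext y
    rw [mem_cj]
    change y ∈ (MulAut.conj g • (E : Subgroup G)) ↔ _
    rw [Subgroup.mem_pointwise_smul_iff_inv_smul_mem]
    simp [MulAut.smul_def]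
  let M : Subgroup G := K ⊓ Subgroup.normalizer ((RP hc hr hr2 K hwE hw1 : Subgroup G) : Set G)
  have hEM : (E : Subgroup G) ≤ M := by
    intro e he
    exact ⟨hEK he, mem_normalizer_iff_cj.2 (RP_conj h hc hr hr2 K hwE hw1 hEK he)⟩
  have hgEM : ((g • E : Sylow 2 G) : Subgroup G) ≤ M := by
    rw [hgS]
    intro e he
    rw [mem_cj] at he
    have hge : g * (g⁻¹ * e * g) * g⁻¹ = e := by group
    refine ⟨?_, mem_normalizer_iff_cj.2 ?_⟩
    · have := K.mul_mem (K.mul_mem hgK (hEK he)) (K.inv_mem hgK)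
      rwa [hge] at this
    · have h7 := RP_conj h hc hr hr2 K hv hv1 hEK he
      have h8 : cj (e * g) (RP hc hr hr2 K hv hv1) = cj g (RP hc hr hr2 K hv hv1) := by
        have : e * g = g * (g⁻¹ * e * g) := by group
        rw [this, ← cj_cj, h7]
      rw [← hg, cj_cj, h8]
  obtain ⟨x', hx'M, hx'⟩ := conj_in (g • E) E hgEM hEM
  rw [hgS, cj_cj] at hx'
  have h9 : x' * g ∈ E := hself _ (K.mul_mem hx'M.1 hgK) hx'
  have h10 := RP_conj h hc hr hr2 K hv hv1 hEK h9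
  rw [← cj_cj, hg, mem_normalizer_iff_cj.1 hx'M.2] at h10
  rw [← h10] at hyP
  have hyw := hyP.2.1
  have hk := h.gen hv hwE hv1 hw1 (Ne.symm hwv)
  have hyE := hk.cen y hyv hyw
  have h11 := h.sq hyE
  rw [← pow_two] at h11
  have h12 := orderOf_dvd_of_pow_eq_one h11
  rw [hyo] at h12
  exact hr2 ((Nat.prime_dvd_prime_iff_eq hr Nat.prime_two).1 h12)

end CfsgLib.Pm
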