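import Cfsg.Agent.LibPm12
import Cfsg.Agent.LibFus21PSL2q
import Cfsg.Agent.LibH22PSL2

set_option autoImplicit false

/-! Pronormality in `PSL_2(q)`, `q ≡ ±3 mod 8` (seat helper26). -/

namespace CfsgLib.Pm

open Matrix CfsgLib.FgSub CfsgLib.H7Pron Cfsg CfsgLib.Fus21.PSL2

variable {F : Type*} [Field F]

theorem comm_field (h2 : (2 : F) ≠ 0) {p q r a b c d : F} (hdet : -(p * p) - q * r = 1) (R1 : b * r = q * c)
    (R2 : q * (a - d) = 2 * p * b) (R3 : 2 * p * c = r * (a - d)) :
    a = (a + d) / 2 + (-(p * (a - d) + b * r + c * q) / 2) * p ∧ b = (-(p * (a - d) + b * r + c * q) / 2) * q ∧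
    c = (-(p * (a - d) + b * r + c * q) / 2) * r ∧ d = (a + d) / 2 + (-(p * (a - d) + b * r + c * q) / 2) * (-p) := by
  have K : 2 * ((a - d) + (p * (a - d) + b * r + c * q) * p) = 0 := by
    linear_combination (-2) * (a - d) * hdet - r * R2 + q * R3
  have K' := (mul_eq_zero.1 K).resolve_left h2
  refine ⟨?_, ?_, ?_, ?_⟩
  · field_simp
    first
      | linear_combination K'
      | linear_combination -K'
  · field_simp
    linear_combination (-2) * b * hdet + p * R2 - q * R1
  · field_simp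
    linear_combination (-2) * c * hdet - p * R3 + r * R1
  · field_simp
    first
      | linear_combination K'
      | linear_combination -K'

theorem cmul (g h : SpecialLinearGroup (Fin 2) F) : ((g * h : SpecialLinearGroup (Fin 2) F) : Matrix (Fin 2) (Fin 2) F) =
    (g : Matrix (Fin 2) (Fin 2) F) * (h : Matrix (Fin 2) (Fin 2) F) := rfl

theorem comm_t (h2 : (2 : F) ≠ 0) {t : SpecialLinearGroup (Fin 2) F} (ht : (t : Matrix (Fin 2) (Fin 2) F) * t = -1)
    {A : Matrix (Fin 2) (Fin 2) F} (hA : A * t = t * A) : ∃ α β : F, A = α • 1 + β • (t : Matrix (Fin 2) (Fin 2) F) := by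
  have htr := trace_zero_of_sq ht
  have hdet := det_eq t
  have hs : t 1 1 = - t 0 0 := by linear_combination htr
  rw [hs] at hdet
  have e00 := congrFun (congrFun hA 0) 0
  have e01 := congrFun (congrFun hA 0) 1
  have e10 := congrFun (congrFun hA 1) 0
  rw [Matrix.mul_apply, Matrix.mul_apply, Fin.sum_univ_two, Fin.sum_univ_two] at e00 e01 e10
  have hs' : (t : Matrix (Fin 2) (Fin 2) F) 1 1 = - t 0 0 := hs
  rw [hs'] at e01 e10
  obtain ⟨h00, h01, h10, h11⟩ := comm_field h2 (p := t 0 0) (q := t 0 1) (r := t 1 0) (a := A 0 0) (b := A 0 1) (c := A 1 0) (d := A 1 1)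
    (by linear_combination hdet) (by linear_combination e00) (by linear_combination e01) (by linear_combination e10)
  refine ⟨(A 0 0 + A 1 1) / 2, -(t 0 0 * (A 0 0 - A 1 1) + A 0 1 * t 1 0 + A 1 0 * t 0 1) / 2, ?_⟩
  ext i j
  rw [Matrix.add_apply, Matrix.smul_apply, Matrix.smul_apply]
  fin_cases i <;> fin_cases j
  · simpa using h00
  · simpa using h01
  · simpa using h10
  · simp only [Fin.mk_one, Fin.isValue, one_apply_eq, smul_eq_mul, mul_one]
    rw [hs']
    exact h11

theorem comm_of_t (h2 : (2 : F) ≠ 0) {t : SpecialLinearGroup (Fin 2) F} (ht : (t : Matrix (Fin 2) (Fin 2) F) * t = -1)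
    {A B : Matrix (Fin 2) (Fin 2) F} (hA : A * t = t * A) (hB : B * t = t * B) : A * B = B * A := by
  obtain ⟨α, β, hA'⟩ := comm_t h2 ht hA
  rw [hA', add_mul, mul_add, smul_mul_assoc, smul_mul_assoc, mul_smul_comm, mul_smul_comm, one_mul, mul_one, hB]

theorem pm_of_comm (h2 : (2 : F) ≠ 0) {t s : SpecialLinearGroup (Fin 2) F} (ht : (t : Matrix (Fin 2) (Fin 2) F) * t = -1)
    (hs : (s : Matrix (Fin 2) (Fin 2) F) * s = -1) (h : (s : Matrix (Fin 2) (Fin 2) F) * t = t * s) :
    (s : Matrix (Fin 2) (Fin 2) F) = t ∨ (s : Matrix (Fin 2) (Fin 2) F) = -t := by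
  obtain ⟨α, β, hαβ⟩ := comm_t h2 ht h
  have htr := trace_zero_of_sq ht
  have hsr := trace_zero_of_sq hs
  have h00 := congrFun (congrFun hαβ 0) 0
  have h11 := congrFun (congrFun hαβ 1) 1
  rw [Matrix.add_apply, Matrix.smul_apply, Matrix.smul_apply, one_apply_eq] at h00 h11
  simp only [smul_eq_mul, mul_one] at h00 h11
  have hα : α = 0 := by
    have h3 : (2 : F) * α = 0 := by
      have e1 : (s : Matrix (Fin 2) (Fin 2) F) 0 0 + (s : Matrix (Fin 2) (Fin 2) F) 1 1 = 0 := hsr
      have e2 : (t : Matrix (Fin 2) (Fin 2) F) 0 0 + (t : Matrix (Fin 2) (Fin 2) F) 1 1 = 0 := htr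
      linear_combination e1 - h00 - h11 - β * e2
    exact (mul_eq_zero.1 h3).resolve_left h2
  rw [hα, zero_smul, zero_add] at hαβ
  rw [hαβ, smul_mul_smul_comm, ht] at hs
  have h4 := congrFun (congrFun hs 0) 0
  rw [Matrix.smul_apply, Matrix.neg_apply, one_apply_eq, smul_eq_mul] at h4
  have h5 : β * β = 1 := by linear_combination -h4
  rcases mul_self_eq_one_iff.1 h5 with h6 | h6
  · left; rw [hαβ, h6, one_smul]
  · right; rw [hαβ, h6, neg_smul, one_smul]

/-- commuting in `PSL` -/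
theorem pr_comm {g t : SpecialLinearGroup (Fin 2) F} (h : pr F g * pr F t = pr F t * pr F g) :
    (g : Matrix (Fin 2) (Fin 2) F) * t = t * g ∨ (g : Matrix (Fin 2) (Fin 2) F) * t = -(t * g) := by
  have h1 : pr F (g * t * (t * g)⁻¹) = 1 := by
    rw [map_mul, map_inv, map_mul, map_mul, h, mul_inv_cancel]
  rw [pr_eq_one] at h1
  have e : ((g * t : SpecialLinearGroup (Fin 2) F) : Matrix (Fin 2) (Fin 2) F) =
      ((g * t * (t * g)⁻¹ : SpecialLinearGroup (Fin 2) F) : Matrix (Fin 2) (Fin 2) F) * ((t * g : SpecialLinearGroup (Fin 2) F) : Matrix (Fin 2) (Fin 2) F) := by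
    rw [← cmul, inv_mul_cancel_right]
  rcases h1 with h1 | h1
  · left
    rw [h1, one_mul, cmul, cmul] at e
    exact e
  · right
    rw [h1, cmul, cmul] at e
    rw [e, neg_mul, one_mul]

/-- odd order elements commuting in `PSL` commute exactly -/
theorem pr_comm_odd (h2 : (2 : F) ≠ 0) [Finite F] {g t : SpecialLinearGroup (Fin 2) F} (h : pr F g * pr F t = pr F t * pr F g)
    (ho : Odd (orderOf (pr F g))) : (g : Matrix (Fin 2) (Fin 2) F) * t = t * g := by
  rcases pr_comm h with h1 | h1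
  · exact h1
  exfalso
  have hk : ∀ k : ℕ, ((g ^ k : SpecialLinearGroup (Fin 2) F) : Matrix (Fin 2) (Fin 2) F) * t =
      (-1 : F) ^ k • ((t : Matrix (Fin 2) (Fin 2) F) * ((g ^ k : SpecialLinearGroup (Fin 2) F) : Matrix (Fin 2) (Fin 2) F)) := by
    intro k
    induction k with
    | zero => simp
    | succ k ih =>
      rw [pow_succ, cmul, mul_assoc, h1, mul_neg, ← mul_assoc, ih, pow_succ, smul_mul_assoc, mul_assoc, mul_neg_one, neg_smul]
  have h3 := hk (orderOf (pr F g))
  have h4 : pr F (g ^ orderOf (pr F g)) = 1 := by rw [map_pow, pow_orderOf_eq_one]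
  rw [ho.neg_one_pow] at h3
  have ht : (t : Matrix (Fin 2) (Fin 2) F) = -(t : Matrix (Fin 2) (Fin 2) F) := by
    rcases pr_eq_one.1 h4 with h6 | h6
    · rw [h6] at h3
      simpa using h3
    · rw [h6] at h3
      have h7 : -(t : Matrix (Fin 2) (Fin 2) F) = t := by simpa using h3
      exact h7.symm
  have hu : ((t : Matrix (Fin 2) (Fin 2) F)) = 0 := by
    ext i j
    have h8 := congrFun (congrFun ht i) j
    rw [Matrix.neg_apply] at h8
    have h9 : (2 : F) * (t : Matrix (Fin 2) (Fin 2) F) i j = 0 := by linear_combination h8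
    rw [(mul_eq_zero.1 h9).resolve_left h2, Matrix.zero_apply]
  have := t.2
  rw [hu] at this
  simp at this

end CfsgLib.Pm
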