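import Cfsg.Agent.LibPm13

set_option autoImplicit false

/-! Pronormality in `PSL_2(q)`, `q ≡ ±3 mod 8`, II (seat helper26). -/

namespace CfsgLib.Pm

open Matrix CfsgLib.FgSub CfsgLib.H7Pron Cfsg CfsgLib.Fus21.PSL2

variable {F : Type*} [Field F]

/-- conjugates -/
theorem conj_pm (h2 : (2 : F) ≠ 0) {x g t : SpecialLinearGroup (Fin 2) F} (ht : (t : Matrix (Fin 2) (Fin 2) F) * t = -1)
    (hx : (x : Matrix (Fin 2) (Fin 2) F) * t = t * x) (hx1 : pr F x ≠ 1)
    (hg : ((g * x * g⁻¹ : SpecialLinearGroup (Fin 2) F) : Matrix (Fin 2) (Fin 2) F) * t = t * ((g * x * g⁻¹ : SpecialLinearGroup (Fin 2) F) : Matrix (Fin 2) (Fin 2) F)) :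
    pr F (g * t * g⁻¹) = pr F t := by
  obtain ⟨α, β, hαβ⟩ := comm_t h2 ht hx
  have hinv : (g : Matrix (Fin 2) (Fin 2) F) * ((g⁻¹ : SpecialLinearGroup (Fin 2) F) : Matrix (Fin 2) (Fin 2) F) = 1 := by
    rw [← cmul, mul_inv_cancel]; rfl
  have hinv' : ((g⁻¹ : SpecialLinearGroup (Fin 2) F) : Matrix (Fin 2) (Fin 2) F) * (g : Matrix (Fin 2) (Fin 2) F) = 1 := by
    rw [← cmul, inv_mul_cancel]; rfl
  have hβ : β ≠ 0 := by
    rintro rfl
    apply hx1
    rw [pr_eq_one]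
    rw [zero_smul, add_zero] at hαβ
    have hd := x.2
    rw [hαβ, det_smul, det_one, Fintype.card_fin, mul_one, pow_two] at hd
    rcases mul_self_eq_one_iff.1 hd with h | h
    · left; rw [hαβ, h, one_smul]
    · right; rw [hαβ, h, neg_smul, one_smul]
  have e1 : ((g * x * g⁻¹ : SpecialLinearGroup (Fin 2) F) : Matrix (Fin 2) (Fin 2) F) =
      α • 1 + β • ((g * t * g⁻¹ : SpecialLinearGroup (Fin 2) F) : Matrix (Fin 2) (Fin 2) F) := by
    rw [cmul, cmul, hαβ, cmul, cmul, mul_add, add_mul, mul_smul_comm, mul_one, smul_mul_assoc, hinv, mul_smul_comm, smul_mul_assoc]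
  rw [e1, add_mul, mul_add, smul_mul_assoc, mul_smul_comm, one_mul, mul_one, smul_mul_assoc, mul_smul_comm] at hg
  have hg' := smul_right_injective _ hβ (add_left_cancel hg)
  have hsq : ((g * t * g⁻¹ : SpecialLinearGroup (Fin 2) F) : Matrix (Fin 2) (Fin 2) F) *
      ((g * t * g⁻¹ : SpecialLinearGroup (Fin 2) F) : Matrix (Fin 2) (Fin 2) F) = -1 := by
    rw [cmul, cmul]
    calc (g : Matrix (Fin 2) (Fin 2) F) * t * ((g⁻¹ : SpecialLinearGroup (Fin 2) F) : Matrix (Fin 2) (Fin 2) F) *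
        ((g : Matrix (Fin 2) (Fin 2) F) * t * ((g⁻¹ : SpecialLinearGroup (Fin 2) F) : Matrix (Fin 2) (Fin 2) F))
        = (g : Matrix (Fin 2) (Fin 2) F) * t * (((g⁻¹ : SpecialLinearGroup (Fin 2) F) : Matrix (Fin 2) (Fin 2) F) *
        (g : Matrix (Fin 2) (Fin 2) F)) * t * ((g⁻¹ : SpecialLinearGroup (Fin 2) F) : Matrix (Fin 2) (Fin 2) F) := by
          simp only [mul_assoc]
      _ = (g : Matrix (Fin 2) (Fin 2) F) * (t * t) * ((g⁻¹ : SpecialLinearGroup (Fin 2) F) : Matrix (Fin 2) (Fin 2) F) := by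
          rw [hinv', mul_one, mul_assoc (g : Matrix (Fin 2) (Fin 2) F)]
      _ = -1 := by rw [ht, mul_neg, mul_one, neg_mul, hinv]
  have h5 := pm_of_comm h2 ht hsq hg'
  have h6 : pr F (g * t * g⁻¹ * t⁻¹) = 1 := by
    rw [pr_eq_one]
    have e2 : ((g * t * g⁻¹ * t⁻¹ : SpecialLinearGroup (Fin 2) F) : Matrix (Fin 2) (Fin 2) F) =
        ((g * t * g⁻¹ : SpecialLinearGroup (Fin 2) F) : Matrix (Fin 2) (Fin 2) F) * ((t⁻¹ : SpecialLinearGroup (Fin 2) F) : Matrix (Fin 2) (Fin 2) F) := rfl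
    have htt : (t : Matrix (Fin 2) (Fin 2) F) * ((t⁻¹ : SpecialLinearGroup (Fin 2) F) : Matrix (Fin 2) (Fin 2) F) = 1 := by
      rw [← cmul, mul_inv_cancel]; rfl
    rcases h5 with h5 | h5
    · left; rw [e2, h5, htt]
    · right; rw [e2, h5, neg_mul, htt]
  rw [map_mul, map_inv, mul_inv_eq_one] at h6
  exact h6

/-- the two generators -/
def qI (F : Type*) [Field F] : SpecialLinearGroup (Fin 2) F := ⟨!![0, 1; -1, 0], by simp [det_fin_two]⟩

def qJ {x y : F} (h : x ^ 2 + y ^ 2 = -1) : SpecialLinearGroup (Fin 2) F := ⟨!![x, y; y, -x], by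
  rw [det_fin_two_of]; linear_combination -h⟩

theorem qI_val : ((qI F : SpecialLinearGroup (Fin 2) F) : Matrix (Fin 2) (Fin 2) F) = !![0, 1; -1, 0] := rfl
theorem qJ_val {x y : F} (h : x ^ 2 + y ^ 2 = -1) : ((qJ h : SpecialLinearGroup (Fin 2) F) : Matrix (Fin 2) (Fin 2) F) = !![x, y; y, -x] := rfl

theorem qI_sq : ((qI F : SpecialLinearGroup (Fin 2) F) : Matrix (Fin 2) (Fin 2) F) * qI F = -1 := by
  rw [qI_val]
  ext i j; fin_cases i <;> fin_cases j <;> simp [Matrix.mul_apply, Fin.sum_univ_two]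

theorem qJ_sq {x y : F} (h : x ^ 2 + y ^ 2 = -1) : ((qJ h : SpecialLinearGroup (Fin 2) F) : Matrix (Fin 2) (Fin 2) F) * qJ h = -1 := by
  rw [qJ_val]
  ext i j; fin_cases i <;> fin_cases j <;> simp [Matrix.mul_apply, Fin.sum_univ_two]
  · linear_combination h
  · ring
  · ring
  · linear_combination h

theorem qIJ {x y : F} (h : x ^ 2 + y ^ 2 = -1) : ((qI F : SpecialLinearGroup (Fin 2) F) : Matrix (Fin 2) (Fin 2) F) * qJ h =
    -(((qJ h : SpecialLinearGroup (Fin 2) F) : Matrix (Fin 2) (Fin 2) F) * qI F) := by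
  rw [qI_val, qJ_val]
  ext i j; fin_cases i <;> fin_cases j <;> simp [Matrix.mul_apply, Fin.sum_univ_two]

theorem qIJ_sq {x y : F} (h : x ^ 2 + y ^ 2 = -1) : ((qI F * qJ h : SpecialLinearGroup (Fin 2) F) : Matrix (Fin 2) (Fin 2) F) *
    ((qI F * qJ h : SpecialLinearGroup (Fin 2) F) : Matrix (Fin 2) (Fin 2) F) = -1 := by
  rw [cmul, qI_val, qJ_val]
  ext i j; fin_cases i <;> fin_cases j <;> simp [Matrix.mul_apply, Fin.sum_univ_two]
  · linear_combination h
  · ring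
  · ring
  · linear_combination h

/-- elements commuting with both generators are trivial in `PSL` -/
theorem comm_IJ (h2 : (2 : F) ≠ 0) {x y : F} (h : x ^ 2 + y ^ 2 = -1) {g : SpecialLinearGroup (Fin 2) F}
    (hI : (g : Matrix (Fin 2) (Fin 2) F) * qI F = qI F * g) (hJ : (g : Matrix (Fin 2) (Fin 2) F) * qJ h = qJ h * g) : pr F g = 1 := by
  rw [qI_val] at hI
  rw [qJ_val] at hJ
  have i00 := congrFun (congrFun hI 0) 0
  have i01 := congrFun (congrFun hI 0) 1
  have j00 := congrFun (congrFun hJ 0) 0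
  have j01 := congrFun (congrFun hJ 0) 1
  simp [Matrix.mul_apply, Fin.sum_univ_two] at i00 i01 j00 j01
  have hxy : x ≠ 0 ∨ y ≠ 0 := by
    by_contra h0
    push Not at h0
    rw [h0.1, h0.2] at h
    simp at h
  have hb : (g : Matrix (Fin 2) (Fin 2) F) 0 1 = 0 := by
    rcases hxy with h0 | h0
    · have : (2 : F) * (x * (g : Matrix (Fin 2) (Fin 2) F) 0 1) = 0 := by
        linear_combination (-1) * j01 + y * i01
      exact (mul_eq_zero.1 ((mul_eq_zero.1 this).resolve_left h2)).resolve_left h0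
    · have : (2 : F) * (y * (g : Matrix (Fin 2) (Fin 2) F) 0 1) = 0 := by
        linear_combination j00 - y * i00
      exact (mul_eq_zero.1 ((mul_eq_zero.1 this).resolve_left h2)).resolve_left h0
  have hc : (g : Matrix (Fin 2) (Fin 2) F) 1 0 = 0 := by
    rw [hb] at i00
    first
      | simpa using i00
      | simpa using i00.symm
  have hd := det_eq g
  have hd' : (g : Matrix (Fin 2) (Fin 2) F) 0 0 * (g : Matrix (Fin 2) (Fin 2) F) 1 1 - (g : Matrix (Fin 2) (Fin 2) F) 0 1 * (g : Matrix (Fin 2) (Fin 2) F) 1 0 = 1 := hd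
  rw [hb, zero_mul, sub_zero] at hd'
  have h11 : (g : Matrix (Fin 2) (Fin 2) F) 1 1 = (g : Matrix (Fin 2) (Fin 2) F) 0 0 := by
    first
      | exact i01.symm
      | exact i01
  rw [h11] at hd'
  rw [pr_eq_one]
  rcases mul_self_eq_one_iff.1 hd' with h3 | h3
  · left
    ext i j; fin_cases i <;> fin_cases j
    · simpa using h3
    · simpa using hb
    · simpa using hc
    · simpa using h11.trans h3
  · right
    ext i j; fin_cases i <;> fin_cases j
    · simpa using h3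
    · simpa using hb
    · simpa using hc
    · simpa using h11.trans h3

end CfsgLib.Pm
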