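import Cfsg.Agent.LibPm14

set_option autoImplicit false

/-! Pronormality in `PSL_2(q)`, `q ≡ ±3 mod 8`, III (seat helper26). -/

namespace CfsgLib.Pm

open Matrix CfsgLib.FgSub CfsgLib.H7Pron Cfsg CfsgLib.Fus21.PSL2

/-- a four-group -/
def V4 {G : Type*} [Group G] {a b : G} (haa : a * a = 1) (hbb : b * b = 1) (hab : a * b = b * a) : Subgroup G where
  carrier := {x | x = 1 ∨ x = a ∨ x = b ∨ x = a * b}
  one_mem' := Or.inl rfl
  mul_mem' := by
    have e1 : a * (a * b) = b := by rw [← mul_assoc, haa, one_mul]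
    have e2 : b * (a * b) = a := by rw [hab, ← mul_assoc, hbb, one_mul]
    have e3 : a * b * a = b := by rw [hab, mul_assoc, haa, mul_one]
    have e4 : a * b * b = a := by rw [mul_assoc, hbb, mul_one]
    have e5 : a * b * (a * b) = 1 := by rw [mul_assoc, e2, haa]
    rintro x y (rfl | rfl | rfl | rfl) (rfl | rfl | rfl | rfl)
    · left; simp
    · right; left; simp
    · right; right; left; simp
    · right; right; right; simp
    · right; left; simp
    · left; exact haa
    · right; right; right; rfl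
    · right; right; left; exact e1
    · right; right; left; simp
    · right; right; right; exact hab.symm
    · left; exact hbb
    · right; left; exact e2
    · right; right; right; simp
    · right; right; left; exact e3
    · right; left; exact e4
    · left; exact e5
  inv_mem' := by
    have e5 : a * b * (a * b) = 1 := by rw [mul_assoc, hab, ← mul_assoc b, hbb, one_mul, haa]
    rintro x (rfl | rfl | rfl | rfl)
    · left; simp
    · right; left; exact inv_eq_of_mul_eq_one_right haa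
    · right; right; left; exact inv_eq_of_mul_eq_one_right hbb
    · right; right; right; exact inv_eq_of_mul_eq_one_right e5

theorem mem_V4 {G : Type*} [Group G] {a b : G} {haa : a * a = 1} {hbb : b * b = 1} {hab : a * b = b * a} {x : G} :
    x ∈ V4 haa hbb hab ↔ (x = 1 ∨ x = a ∨ x = b ∨ x = a * b) := Iff.rfl

theorem card_V4 {G : Type*} [Group G] {a b : G} (haa : a * a = 1) (hbb : b * b = 1) (hab : a * b = b * a)
    (ha : a ≠ 1) (hb : b ≠ 1) (hne : a ≠ b) : Nat.card (V4 haa hbb hab) = 4 := by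
  have h1 : a * b ≠ 1 := by
    intro h
    apply hne
    have := congrArg (a * ·) h
    simp only [← mul_assoc, haa, one_mul, mul_one] at this
    exact this.symm
  have h2 : a * b ≠ a := by
    intro h
    apply hb
    simpa using h
  have h3 : a * b ≠ b := by
    intro h
    apply ha
    simpa using h
  classical
  have e : ((V4 haa hbb hab : Subgroup G) : Set G) = ({1, a, b, a * b} : Finset G) := by
    ext x
    simp only [SetLike.mem_coe, mem_V4, Finset.coe_insert, Finset.coe_singleton, Set.mem_insert_iff, Set.mem_singleton_iff]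
  have h4 : Nat.card (V4 haa hbb hab) = ((V4 haa hbb hab : Subgroup G) : Set G).ncard := rfl
  rw [h4, e, Set.ncard_coe_finset]
  rw [Finset.card_insert_of_notMem, Finset.card_insert_of_notMem, Finset.card_insert_of_notMem, Finset.card_singleton]
  · simpa using h3.symm
  · simp only [Finset.mem_insert, Finset.mem_singleton, not_or]
    exact ⟨hne, h2.symm⟩
  · simp only [Finset.mem_insert, Finset.mem_singleton, not_or]
    exact ⟨ha.symm, hb.symm, h1.symm⟩

/-- reduction to overgroups of a fixed Sylow subgroup -/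
theorem pron_any {G : Type*} [Group G] [Finite G] {p : ℕ} [Fact p.Prime] (S : Sylow p G)
    (key : ∀ H : Subgroup G, (S : Subgroup G) ≤ H → IsPronormal H) (H : Subgroup G) (hH : ¬ p ∣ H.index) : IsPronormal H := by
  obtain ⟨P, hP⟩ := (exists_sylow_le_iff _).2 hH
  obtain ⟨g, hg, hge⟩ := conj_in (K := ⊤) P S le_top le_top
  have h1 : IsPronormal (cj g H) := key _ (by rw [← hge]; exact cj_mono hP)
  have h2 := pronormal_cj g⁻¹ h1
  rwa [cj_cj, inv_mul_cancel, cj_eq_of_mem (Subgroup.one_mem _)] at h2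

variable {F : Type*} [Field F]

theorem pr_sq {t : SpecialLinearGroup (Fin 2) F} (ht : (t : Matrix (Fin 2) (Fin 2) F) * t = -1) : pr F t * pr F t = 1 := by
  rw [← map_mul, pr_eq_one]
  right
  exact ht

theorem pr_ne_one (h2 : (2 : F) ≠ 0) {t : SpecialLinearGroup (Fin 2) F} (ht : (t : Matrix (Fin 2) (Fin 2) F) * t = -1) : pr F t ≠ 1 := by
  intro h
  rw [pr_eq_one] at h
  have h3 : (1 : Matrix (Fin 2) (Fin 2) F) = -1 := by
    rcases h with h | h
    · rw [h] at ht; simpa using ht
    · rw [h] at ht; simpa using ht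
  have h4 := congrFun (congrFun h3 0) 0
  rw [Matrix.neg_apply, one_apply_eq] at h4
  apply h2
  linear_combination h4

theorem r1 {R : Type*} [Ring R] {g I J : R} (h3 : g * I = I * g) (h4 : g * J = -(J * g)) (hIJ : I * J = -(J * I)) :
    g * I * J = J * (g * I) := by
  calc g * I * J = I * (g * J) := by rw [h3, mul_assoc]
    _ = -(I * J) * g := by rw [h4]; noncomm_ring
    _ = J * I * g := by rw [hIJ, neg_neg]
    _ = J * (g * I) := by rw [mul_assoc, h3]

theorem r2 {R : Type*} [Ring R] {g I J : R} (h3 : g * I = -(I * g)) (h4 : g * J = -(J * g)) (hIJ : I * J = -(J * I)) :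
    g * (I * J) * I = I * (g * (I * J)) := by
  have hJI : J * I = -(I * J) := by rw [hIJ, neg_neg]
  calc g * (I * J) * I = (g * I) * (J * I) := by noncomm_ring
    _ = (I * g) * (I * J) := by rw [h3, hJI]; noncomm_ring
    _ = I * (g * (I * J)) := by rw [mul_assoc]

theorem r3 {R : Type*} [Ring R] {g I J : R} (h3 : g * I = -(I * g)) (h4 : g * J = -(J * g)) (hIJ : I * J = -(J * I)) :
    g * (I * J) * J = J * (g * (I * J)) := by
  calc g * (I * J) * J = g * (-(J * I)) * J := by rw [← hIJ]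
    _ = -(g * J) * (I * J) := by noncomm_ring
    _ = (J * g) * (I * J) := by rw [h4, neg_neg]
    _ = J * (g * (I * J)) := by rw [mul_assoc]

theorem exists_K4 [Fintype F] (hq : Fintype.card F % 8 = 3 ∨ Fintype.card F % 8 = 5) :
    ∃ (E : Sylow 2 (ProjectiveSpecialLinearGroup (Fin 2) F)) (a b : ProjectiveSpecialLinearGroup (Fin 2) F), K4 E a b ∧ KC E := by
  haveI : Fact (Nat.Prime 2) := ⟨Nat.prime_two⟩
  have hodd : Fintype.card F % 2 = 1 := by omega
  have h2 : (2 : F) ≠ 0 := by
    intro h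
    have h3 : (ringChar F) ∣ 2 := by
      rw [← ringChar.spec]
      exact_mod_cast h
    obtain ⟨n, hp, hn⟩ := FiniteField.card F (ringChar F)
    have h4 : ringChar F = 2 := (Nat.prime_dvd_prime_iff_eq hp Nat.prime_two).1 h3
    rw [hn, h4] at hodd
    have : 2 ∣ 2 ^ (n : ℕ) := dvd_pow_self 2 n.ne_zero
    omega
  obtain ⟨x, y, hxy⟩ := sq_sum (F := F) hodd (-1)
  set I := qI F with hI
  set J := qJ hxy with hJ
  have haa := pr_sq (F := F) qI_sq
  have hbb := pr_sq (F := F) (qJ_sq hxy)
  have ha1 := pr_ne_one h2 (F := F) qI_sq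
  have hb1 := pr_ne_one h2 (F := F) (qJ_sq hxy)
  have hab1 := pr_ne_one h2 (F := F) (qIJ_sq hxy)
  have habab := pr_sq (F := F) (qIJ_sq hxy)
  rw [← hI] at haa ha1 hab1 habab
  rw [← hJ] at hbb hb1 hab1 habab
  rw [map_mul] at hab1 habab
  have hab : pr F I * pr F J = pr F J * pr F I := by
    have e1 : (pr F I)⁻¹ = pr F I := inv_eq_of_mul_eq_one_right haa
    have e2 : (pr F J)⁻¹ = pr F J := inv_eq_of_mul_eq_one_right hbb
    have e3 : (pr F I * pr F J)⁻¹ = pr F I * pr F J := inv_eq_of_mul_eq_one_right habab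
    rw [← e3, _root_.mul_inv_rev, e1, e2]
  have hne : pr F I ≠ pr F J := by
    intro h
    apply hab1
    rw [h, hbb]
  have hcard := card_V4 haa hbb hab ha1 hb1 hne
  have hp : IsPGroup 2 (V4 haa hbb hab) := IsPGroup.of_card (n := 2) (by rw [hcard]; norm_num)
  have hidx : ¬ 2 ∣ (V4 haa hbb hab).index := by
    have h1 := Cfsg.Agent.H22.card_PSL2 (F := F)
    have h3 := Subgroup.card_mul_index (V4 haa hbb hab)
    have hg : Nat.gcd 2 (Fintype.card F - 1) = 2 := by
      apply Nat.gcd_eq_left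
      omega
    rw [hg, ← h3, hcard] at h1
    rintro ⟨m, hm⟩
    rw [hm] at h1
    rcases hq with hq | hq
    · obtain ⟨k, hk⟩ : ∃ k, Fintype.card F = 8 * k + 3 := ⟨Fintype.card F / 8, by omega⟩
      rw [hk, show 8 * k + 3 - 1 = 8 * k + 2 by omega, show 8 * k + 3 + 1 = 8 * k + 4 by omega] at h1
      have h5 : 8 * (2 * m) = 8 * ((8 * k + 3) * ((4 * k + 1) * (2 * k + 1))) := by
        calc 8 * (2 * m) = 2 * (4 * (2 * m)) := by ring
          _ = (8 * k + 3) * ((8 * k + 2) * (8 * k + 4)) := h1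
          _ = _ := by ring
      have h6 : 2 * m = (8 * k + 3) * ((4 * k + 1) * (2 * k + 1)) := Nat.eq_of_mul_eq_mul_left (by norm_num) h5
      have h7 : (8 * k + 3) * ((4 * k + 1) * (2 * k + 1)) = 2 * (32 * k ^ 3 + 36 * k ^ 2 + 13 * k + 1) + 1 := by ring
      omega
    · obtain ⟨k, hk⟩ : ∃ k, Fintype.card F = 8 * k + 5 := ⟨Fintype.card F / 8, by omega⟩
      rw [hk, show 8 * k + 5 - 1 = 8 * k + 4 by omega, show 8 * k + 5 + 1 = 8 * k + 6 by omega] at h1
      have h5 : 8 * (2 * m) = 8 * ((8 * k + 5) * ((2 * k + 1) * (4 * k + 3))) := by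
        calc 8 * (2 * m) = 2 * (4 * (2 * m)) := by ring
          _ = (8 * k + 5) * ((8 * k + 4) * (8 * k + 6)) := h1
          _ = _ := by ring
      have h6 : 2 * m = (8 * k + 5) * ((2 * k + 1) * (4 * k + 3)) := Nat.eq_of_mul_eq_mul_left (by norm_num) h5
      have h7 : (8 * k + 5) * ((2 * k + 1) * (4 * k + 3)) = 2 * (32 * k ^ 3 + 60 * k ^ 2 + 37 * k + 7) + 1 := by ring
      omega
  have hEc : ((hp.toSylow hidx : Sylow 2 _) : Subgroup (ProjectiveSpecialLinearGroup (Fin 2) F)) = V4 haa hbb hab := rfl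
  have hmem : ∀ z, z ∈ (hp.toSylow hidx : Sylow 2 _) ↔ (z = 1 ∨ z = pr F I ∨ z = pr F J ∨ z = pr F I * pr F J) := fun z => Iff.rfl
  have hlift : ∀ v ∈ (hp.toSylow hidx : Sylow 2 _), v ≠ 1 → ∃ t : SpecialLinearGroup (Fin 2) F, pr F t = v ∧
      (t : Matrix (Fin 2) (Fin 2) F) * t = -1 := by
    intro v hv hv1
    rcases (hmem v).1 hv with h | h | h | h
    · exact absurd h hv1
    · exact ⟨I, h.symm, qI_sq⟩
    · exact ⟨J, h.symm, qJ_sq hxy⟩
    · exact ⟨I * J, by rw [map_mul]; exact h.symm, qIJ_sq hxy⟩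
  refine ⟨hp.toSylow hidx, pr F I, pr F J, ⟨haa, hbb, hab, ha1, hb1, hne, hmem, ?_⟩, ⟨?_, ?_⟩⟩
  · intro z hzI hzJ
    rw [hmem]
    obtain ⟨g, rfl⟩ := pr_surj z
    have hIJ : (I : Matrix (Fin 2) (Fin 2) F) * J = -((J : Matrix (Fin 2) (Fin 2) F) * I) := qIJ hxy
    have hJI : (J : Matrix (Fin 2) (Fin 2) F) * I = -((I : Matrix (Fin 2) (Fin 2) F) * J) := by rw [hIJ, neg_neg]
    rcases pr_comm hzI with h3 | h3 <;> rcases pr_comm hzJ with h4 | h4
    · left
      exact comm_IJ h2 hxy h3 h4
    · right; left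
      have h5 : pr F (g * I) = 1 := comm_IJ h2 hxy
        (by
          change (g : Matrix (Fin 2) (Fin 2) F) * I * I = I * ((g : Matrix (Fin 2) (Fin 2) F) * I)
          rw [h3, mul_assoc, h3])
        (by
          change (g : Matrix (Fin 2) (Fin 2) F) * I * J = J * ((g : Matrix (Fin 2) (Fin 2) F) * I)
          exact r1 h3 h4 hIJ)
      rw [map_mul] at h5
      have e1 : (pr F I)⁻¹ = pr F I := inv_eq_of_mul_eq_one_right haa
      rw [← e1]
      exact eq_inv_of_mul_eq_one_left h5
    · right; right; left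
      have h5 : pr F (g * J) = 1 := comm_IJ h2 hxy
        (by
          change (g : Matrix (Fin 2) (Fin 2) F) * J * I = I * ((g : Matrix (Fin 2) (Fin 2) F) * J)
          exact r1 h4 h3 hJI)
        (by
          change (g : Matrix (Fin 2) (Fin 2) F) * J * J = J * ((g : Matrix (Fin 2) (Fin 2) F) * J)
          rw [h4, mul_assoc, h4])
      rw [map_mul] at h5
      have e1 : (pr F J)⁻¹ = pr F J := inv_eq_of_mul_eq_one_right hbb
      rw [← e1]
      exact eq_inv_of_mul_eq_one_left h5
    · right; right; right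
      have h5 : pr F (g * (I * J)) = 1 := comm_IJ h2 hxy
        (by
          change (g : Matrix (Fin 2) (Fin 2) F) * (I * J) * I = I * ((g : Matrix (Fin 2) (Fin 2) F) * (I * J))
          exact r2 h3 h4 hIJ)
        (by
          change (g : Matrix (Fin 2) (Fin 2) F) * (I * J) * J = J * ((g : Matrix (Fin 2) (Fin 2) F) * (I * J))
          exact r3 h3 h4 hIJ)
      rw [map_mul, map_mul] at h5
      have e1 : (pr F I * pr F J)⁻¹ = pr F I * pr F J := inv_eq_of_mul_eq_one_right habab
      rw [← e1]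
      exact eq_inv_of_mul_eq_one_left h5
  · intro v hv hv1 z w hz hw hzo hwo
    obtain ⟨t, rfl, ht⟩ := hlift v hv hv1
    obtain ⟨g, rfl⟩ := pr_surj z
    obtain ⟨k, rfl⟩ := pr_surj w
    have h5 := comm_of_t h2 ht (pr_comm_odd h2 hz hzo) (pr_comm_odd h2 hw hwo)
    have h6 : g * k = k * g := Subtype.ext h5
    rw [← map_mul, ← map_mul, h6]
  · intro v hv hv1 z hz1 hzo hzv w hw
    obtain ⟨t, rfl, ht⟩ := hlift v hv hv1
    obtain ⟨g, rfl⟩ := pr_surj z
    obtain ⟨k, rfl⟩ := pr_surj w
    have h5 := pr_comm_odd h2 hzv hzo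
    have ho : Odd (orderOf (pr F (k * g * k⁻¹))) := by
      rw [map_mul, map_mul, map_inv]
      have : orderOf (pr F k * pr F g * (pr F k)⁻¹) = orderOf (pr F g) := by
        have := orderOf_injective (MulAut.conj (pr F k)).toMonoidHom (MulAut.conj (pr F k)).injective (pr F g)
        simpa using this
      rw [this]
      exact hzo
    rw [← map_inv, ← map_mul, ← map_mul] at hw
    have h6 := pr_comm_odd h2 hw ho
    have h7 := conj_pm h2 ht h5 hz1 h6
    rw [← map_inv, ← map_mul, ← map_mul]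
    exact h7

theorem psl2_pron35 [Fintype F] (hq : Fintype.card F % 8 = 3 ∨ Fintype.card F % 8 = 5)
    (H : Subgroup (ProjectiveSpecialLinearGroup (Fin 2) F)) (hH : ¬ 2 ∣ H.index) : IsPronormal H := by
  haveI : Fact (Nat.Prime 2) := ⟨Nat.prime_two⟩
  obtain ⟨E, a, b, h, hc⟩ := exists_K4 hq
  exact pron_any E (fun K hK => h.pron hc hK) H hH

end CfsgLib.Pm
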