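import Cfsg.Agent.LibPm10
import Cfsg.Agent.LibPm15

set_option autoImplicit false

/-! Pronormality in `PSL_{2^w}(q)`, `q` odd (seat helper26). -/

namespace CfsgLib.Pm

open Matrix CfsgLib.FgSub CfsgLib.H7Pron Cfsg

variable {F : Type*} [Field F] [Fintype F]

theorem scalar_center {ι : Type*} [Fintype ι] [DecidableEq ι] {z : SpecialLinearGroup ι F} {c : F}
    (h : (z : Matrix ι ι F) = c • 1) : z ∈ Subgroup.center (SpecialLinearGroup ι F) := by
  rw [Subgroup.mem_center_iff]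
  intro g
  apply Subtype.ext
  change (g : Matrix ι ι F) * (z : Matrix ι ι F) = (z : Matrix ι ι F) * (g : Matrix ι ι F)
  rw [h]
  simp

theorem pron_large (hq : Odd (Fintype.card F)) {j : ℕ} (hj : 1 ≤ j) (H : Subgroup (ProjectiveSpecialLinearGroup (Fin (2 ^ (j + 1))) F))
    (hH : ¬ 2 ∣ H.index) : IsPronormal H := by
  haveI : Fact (Nat.Prime 2) := ⟨Nat.prime_two⟩
  obtain ⟨Y, hY, hB⟩ := PS_all (F := F) hq j
  have hB := hB hj
  let S : Sylow 2 (SpecialLinearGroup (Fin (2 ^ (j + 1))) F) := (two_comap hY.two).toSylow (odd_comap hY.odd)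
  refine pron_quot (Subgroup.center (SpecialLinearGroup (Fin (2 ^ (j + 1))) F)) S ?_ H hH
  intro K hSK hZK
  apply pron_of_norm S hSK
  intro n hn
  have hn' : cj n (Y.comap (Matrix.SpecialLinearGroup.toGL : SpecialLinearGroup (Fin (2 ^ (j + 1))) F →* GL (Fin (2 ^ (j + 1))) F)) =
      Y.comap Matrix.SpecialLinearGroup.toGL := hn
  obtain ⟨x, hx, c, hc⟩ := hB _ (cj_comap hn')
  obtain ⟨k, hk⟩ := hY.two ⟨x, hx⟩
  have hk' : x ^ 2 ^ k = 1 := congrArg Subtype.val hk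
  have hnK : n ∈ K := by
    apply mem_of_norm_pow hSK hn (k := k)
    apply hZK
    apply scalar_center (c := c ^ 2 ^ k)
    have h1 : ((n ^ 2 ^ k : SpecialLinearGroup (Fin (2 ^ (j + 1))) F) : Matrix (Fin (2 ^ (j + 1))) (Fin (2 ^ (j + 1))) F) =
        ((n.toGL : GL (Fin (2 ^ (j + 1))) F) : Matrix (Fin (2 ^ (j + 1))) (Fin (2 ^ (j + 1))) F) ^ 2 ^ k := by
      rw [← Units.val_pow_eq_pow_val, ← map_pow]
      rfl
    rw [h1, hc, smul_pow, ← Units.val_pow_eq_pow_val, hk', Units.val_one]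
  exact cj_eq_of_mem hnK

theorem pron_two1 (hq : Fintype.card F % 8 = 1 ∨ Fintype.card F % 8 = 7) (H : Subgroup (ProjectiveSpecialLinearGroup (Fin 2) F))
    (hH : ¬ 2 ∣ H.index) : IsPronormal H := by
  haveI : Fact (Nat.Prime 2) := ⟨Nat.prime_two⟩
  have hodd : Odd (Fintype.card F) := by rw [Nat.odd_iff]; omega
  obtain ⟨δ, hδ, X, hX, hαβ⟩ := exists_base F hodd
  obtain ⟨α, β, h1, h3⟩ := hαβ hq
  let S : Sylow 2 (SpecialLinearGroup (Fin 2) F) := (two_comap hX.ps.two).toSylow (odd_comap hX.ps.odd)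
  refine pron_quot (Subgroup.center (SpecialLinearGroup (Fin 2) F)) S ?_ H hH
  intro K hSK hZK
  apply pron_of_norm S hSK
  intro n hn
  have hn' : cj n (X.comap (Matrix.SpecialLinearGroup.toGL : SpecialLinearGroup (Fin 2) F →* GL (Fin 2) F)) =
      X.comap Matrix.SpecialLinearGroup.toGL := hn
  have hnX : n.toGL ∈ X := self_norm (two_ne hodd) hX h1 h3 (mem_DD.2 n.2) (cj_comap hn')
  exact cj_eq_of_mem (hSK hnX)

theorem pron_two (hq : Odd (Fintype.card F)) (H : Subgroup (ProjectiveSpecialLinearGroup (Fin 2) F))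
    (hH : ¬ 2 ∣ H.index) : IsPronormal H := by
  have h : Fintype.card F % 8 = 1 ∨ Fintype.card F % 8 = 3 ∨ Fintype.card F % 8 = 5 ∨ Fintype.card F % 8 = 7 := by
    rw [Nat.odd_iff] at hq; omega
  rcases h with h | h | h | h
  · exact pron_two1 (Or.inl h) H hH
  · exact psl2_pron35 (Or.inl h) H hH
  · exact psl2_pron35 (Or.inr h) H hH
  · exact pron_two1 (Or.inr h) H hH

theorem pron_two' (hq : Odd (Fintype.card F)) {n : ℕ} (hn : n = 2) (H : Subgroup (ProjectiveSpecialLinearGroup (Fin n) F))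
    (hH : ¬ 2 ∣ H.index) : IsPronormal H := by
  subst hn
  exact pron_two hq H hH

theorem pron_odd (hq : Odd (Fintype.card F)) {w : ℕ} (hw : 1 ≤ w) (H : Subgroup (ProjectiveSpecialLinearGroup (Fin (2 ^ w)) F))
    (hH : ¬ 2 ∣ H.index) : IsPronormal H := by
  obtain ⟨j, rfl⟩ : ∃ j, w = j + 1 := ⟨w - 1, by omega⟩
  rcases Nat.eq_zero_or_pos j with rfl | hj
  · exact pron_two' hq (by norm_num) H hH
  · exact pron_large hq hj H hH

end CfsgLib.Pm
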