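import Cfsg.Agent.LibPm17

set_option autoImplicit false

/-! Overgroups of the unitriangular group in `SL_d(F)`, II (seat helper26). -/

namespace CfsgLib.Pm

open Matrix CfsgLib.FgSub

variable {d : ℕ} {F : Type*} [Field F]

theorem single_dot_ne {i j : Fin d} (hij : i ≠ j) (a b : F) : (Pi.single j b : Fin d → F) ⬝ᵥ (Pi.single i a : Fin d → F) = 0 := by
  rw [single_dotProduct, Pi.single_eq_of_ne (Ne.symm hij), mul_zero]

/-- elementary transvections -/
def el {i j : Fin d} (hij : i ≠ j) (a : F) : SpecialLinearGroup (Fin d) F := tr (Pi.single i a) (Pi.single j 1) (single_dot_ne hij a 1)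

theorem vv_single (i j : Fin d) (a b : F) : vecMulVec (Pi.single i a : Fin d → F) (Pi.single j b) = Matrix.single i j (a * b) := by
  ext k l
  rw [vecMulVec_apply, Matrix.single_apply]
  by_cases hk : i = k
  · subst hk
    by_cases hl : j = l
    · subst hl; simp
    · rw [if_neg (fun h => hl h.2), Pi.single_eq_of_ne (Ne.symm hl), mul_zero]
  · rw [if_neg (fun h => hk h.1), Pi.single_eq_of_ne (Ne.symm hk), zero_mul]

theorem el_val {i j : Fin d} (hij : i ≠ j) (a : F) : ((el hij a : SpecialLinearGroup (Fin d) F) : Matrix (Fin d) (Fin d) F) = 1 + Matrix.single i j a := by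
  unfold el
  rw [tr_val, vv_single, mul_one]

theorem tr_eq_el {i j : Fin d} (hij : i ≠ j) (a b : F) (h : (Pi.single j b : Fin d → F) ⬝ᵥ (Pi.single i a : Fin d → F) = 0) :
    tr (Pi.single i a) (Pi.single j b) h = el hij (a * b) := by
  apply Subtype.ext
  change 1 + vecMulVec (Pi.single i a : Fin d → F) (Pi.single j b) = ((el hij (a * b) : SpecialLinearGroup (Fin d) F) : Matrix (Fin d) (Fin d) F)
  rw [el_val, vv_single]

/-- root subgroups contained in `H` -/
def RR (H : Subgroup (SpecialLinearGroup (Fin d) F)) (i j : Fin d) : Prop := ∀ hij : i ≠ j, ∀ a : F, el hij a ∈ H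

theorem el_comm {i j k : Fin d} (hij : i ≠ j) (hjk : j ≠ k) (hik : i ≠ k) (a : F) :
    el hjk (1 : F) * el hij a = el hij a * el hik (-a) * el hjk 1 := by
  apply Subtype.ext
  rw [cm, cm, cm, el_val, el_val, el_val]
  have e1 : Matrix.single j k (1 : F) * Matrix.single i j a = 0 := single_mul_single_of_ne _ _ _ _ (Ne.symm hik) _
  have e2 : Matrix.single i j a * Matrix.single i k (-a) = 0 := single_mul_single_of_ne _ _ _ _ (Ne.symm hij) _
  have e3 : Matrix.single i k (-a) * Matrix.single j k (1 : F) = 0 := single_mul_single_of_ne _ _ _ _ (Ne.symm hjk) _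
  have e4 : Matrix.single i j a * Matrix.single j k (1 : F) = Matrix.single i k a := by rw [single_mul_single_same, mul_one]
  have e5 : Matrix.single i k (-a) = -Matrix.single i k a := by
    rw [← Matrix.single_neg]
  have e6 : (1 + Matrix.single i j a) * (1 + Matrix.single i k (-a)) * (1 + Matrix.single j k (1 : F)) =
      1 + Matrix.single j k (1 : F) + Matrix.single i j a + Matrix.single i k (-a) + Matrix.single i j a * Matrix.single j k (1 : F) +
        Matrix.single i k (-a) * Matrix.single j k (1 : F) + Matrix.single i j a * Matrix.single i k (-a) * (1 + Matrix.single j k (1 : F)) := by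
    noncomm_ring
  have e7 : (1 + Matrix.single j k (1 : F)) * (1 + Matrix.single i j a) =
      1 + Matrix.single j k (1 : F) + Matrix.single i j a + Matrix.single j k (1 : F) * Matrix.single i j a := by
    noncomm_ring
  rw [e6, e7, e1, e2, e3, e4, e5, zero_mul, add_zero, add_zero, add_zero, neg_add_cancel_right]

theorem el_neg {i j : Fin d} (hij : i ≠ j) (a : F) : el hij a * el hij (-a) = 1 := by
  apply Subtype.ext
  rw [cm, el_val, el_val]
  have e2 : Matrix.single i j a * Matrix.single i j (-a) = 0 := single_mul_single_of_ne _ _ _ _ (Ne.symm hij) _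
  have e5 : Matrix.single i j (-a) = -Matrix.single i j a := by
    rw [← Matrix.single_neg]
  rw [mul_add, add_mul, add_mul, e2, e5]
  simp

theorem RR_trans {H : Subgroup (SpecialLinearGroup (Fin d) F)} {i j k : Fin d} (h1 : RR H i j) (h2 : RR H j k) : RR H i k := by
  intro hik a
  by_cases hij : i = j
  · subst hij; exact h2 hik a
  by_cases hjk : j = k
  · subst hjk; exact h1 hik a
  have e := el_comm hij hjk hik (-a)
  rw [neg_neg] at e
  have e2 : el hik a = (el hij (-a))⁻¹ * (el hjk (1 : F) * el hij (-a)) * (el hjk 1)⁻¹ := by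
    rw [e]; group
  rw [e2]
  exact H.mul_mem (H.mul_mem (H.inv_mem (h1 hij _)) (H.mul_mem (h2 hjk _) (h1 hij _))) (H.inv_mem (h2 hjk _))

theorem exists_max {x : Fin d → F} {i : Fin d} (h : x i ≠ 0) : ∃ s, i ≤ s ∧ x s ≠ 0 ∧ ∀ j, s < j → x j = 0 := by
  classical
  have hne : (Finset.univ.filter (fun j => x j ≠ 0)).Nonempty := ⟨i, by simp [h]⟩
  refine ⟨(Finset.univ.filter (fun j => x j ≠ 0)).max' hne, Finset.le_max' _ _ (by simp [h]), ?_, ?_⟩
  · have := Finset.max'_mem _ hne
    exact (Finset.mem_filter.1 this).2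
  · intro j hj
    by_contra h0
    exact absurd (Finset.le_max' (Finset.univ.filter (fun j => x j ≠ 0)) j (by simp [h0])) (not_le.2 hj)

theorem exists_min {x : Fin d → F} {i : Fin d} (h : x i ≠ 0) : ∃ s, s ≤ i ∧ x s ≠ 0 ∧ ∀ j, j < s → x j = 0 := by
  classical
  have hne : (Finset.univ.filter (fun j => x j ≠ 0)).Nonempty := ⟨i, by simp [h]⟩
  refine ⟨(Finset.univ.filter (fun j => x j ≠ 0)).min' hne, Finset.min'_le _ _ (by simp [h]), ?_, ?_⟩
  · have := Finset.min'_mem _ hne
    exact (Finset.mem_filter.1 this).2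
  · intro j hj
    by_contra h0
    exact absurd (Finset.min'_le (Finset.univ.filter (fun j => x j ≠ 0)) j (by simp [h0])) (not_le.2 hj)

/-- the standard flag -/
def Vm (m : Fin d) : Submodule F (Fin d → F) where
  carrier := {x | ∀ i, m ≤ i → x i = 0}
  zero_mem' := fun i _ => rfl
  add_mem' := by
    intro a b ha hb i hi
    rw [Pi.add_apply, ha i hi, hb i hi, add_zero]
  smul_mem' := by
    intro c x hx i hi
    rw [Pi.smul_apply, hx i hi, smul_zero]

/-- invariant subspaces -/
def Inv (H : Subgroup (SpecialLinearGroup (Fin d) F)) (W : Submodule F (Fin d → F)) : Prop :=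
  ∀ h ∈ H, ∀ v ∈ W, (h : Matrix (Fin d) (Fin d) F) *ᵥ v ∈ W

variable [Finite F]

theorem RR_lt {H : Subgroup (SpecialLinearGroup (Fin d) F)} (hU : Ut d F ≤ H) {i j : Fin d} (hij : i ≤ j) : RR H i j := by
  intro hne a
  apply hU
  apply tr_mem_Ut
  intro k l hkl
  by_cases hk : k = i
  · subst hk
    rw [Pi.single_eq_of_ne (ne_of_lt (lt_of_le_of_lt hkl (lt_of_le_of_ne hij hne))), mul_zero]
  · rw [Pi.single_eq_of_ne hk, zero_mul]

theorem claim2 {H : Subgroup (SpecialLinearGroup (Fin d) F)} (hU : Ut d F ≤ H) {m : Fin d} (hm : ¬ Inv H (Vm m)) :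
    ∃ s t : Fin d, t < m ∧ m ≤ s ∧ RR H s t := by
  unfold Inv at hm
  push Not at hm
  obtain ⟨h, hh, v, hv, hhv⟩ := hm
  -- column
  obtain ⟨s0, j, hs0, hj, hsj⟩ : ∃ s0 j : Fin d, m ≤ s0 ∧ j < m ∧ (h : Matrix (Fin d) (Fin d) F) s0 j ≠ 0 := by
    by_contra hc
    push Not at hc
    apply hhv
    intro i hi
    rw [mulVec, dotProduct]
    apply Finset.sum_eq_zero
    intro j _
    by_cases hjm : j < m
    · rw [hc i j hi hjm, zero_mul]
    · rw [hv j (not_lt.1 hjm), mul_zero]
  obtain ⟨k, t0, hk, ht0, hkt⟩ : ∃ k t0 : Fin d, m ≤ k ∧ t0 < m ∧ ((h⁻¹ : SpecialLinearGroup (Fin d) F) : Matrix (Fin d) (Fin d) F) k t0 ≠ 0 := by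
    by_contra hc
    push Not at hc
    have hst : ∀ w ∈ Vm m, ((h⁻¹ : SpecialLinearGroup (Fin d) F) : Matrix (Fin d) (Fin d) F) *ᵥ w ∈ (Vm m : Submodule F (Fin d → F)) := by
      intro w hw i hi
      rw [mulVec, dotProduct]
      apply Finset.sum_eq_zero
      intro j _
      by_cases hjm : j < m
      · rw [hc i j hi hjm, zero_mul]
      · rw [hw j (not_lt.1 hjm), mul_zero]
    have hpow : ∀ n : ℕ, ∀ w ∈ Vm m, ((h⁻¹ ^ n : SpecialLinearGroup (Fin d) F) : Matrix (Fin d) (Fin d) F) *ᵥ w ∈ (Vm m : Submodule F (Fin d → F)) := by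
      intro n
      induction n with
      | zero =>
        intro w hw
        rw [pow_zero]
        change (1 : Matrix (Fin d) (Fin d) F) *ᵥ w ∈ _
        rw [one_mulVec]; exact hw
      | succ n ih =>
        intro w hw
        rw [pow_succ, cm, ← mulVec_mulVec]
        exact ih _ (hst w hw)
    apply hhv
    have e : h = h⁻¹ ^ (orderOf h⁻¹ - 1) := by
      have : h⁻¹ ^ (orderOf h⁻¹ - 1) = (h⁻¹)⁻¹ := by
        rw [eq_inv_iff_mul_eq_one, ← pow_succ, Nat.sub_add_cancel (orderOf_pos _), pow_orderOf_eq_one]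
      rw [this, inv_inv]
    rw [e]
    exact hpow _ v hv
  have hjk : j ≠ k := ne_of_lt (lt_of_lt_of_le hj hk)
  obtain ⟨s, hs, hss, hsm⟩ := exists_max (x := fun i => (h : Matrix (Fin d) (Fin d) F) i j) hsj
  obtain ⟨t, ht, htt, htm⟩ := exists_min (x := fun i => ((h⁻¹ : SpecialLinearGroup (Fin d) F) : Matrix (Fin d) (Fin d) F) k i) hkt
  have htm' : t < m := lt_of_le_of_lt ht ht0
  have hms : m ≤ s := hs0.trans hs
  refine ⟨s, t, htm', hms, ?_⟩
  intro hst b
  set c := (h : Matrix (Fin d) (Fin d) F) s j * ((h⁻¹ : SpecialLinearGroup (Fin d) F) : Matrix (Fin d) (Fin d) F) k t with hc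
  have hc0 : c ≠ 0 := mul_ne_zero hss htt
  by_cases hb : b = 0
  · have : el hst b = 1 := by
      apply Subtype.ext
      rw [el_val, hb, Matrix.single_zero, add_zero]
      rfl
    rw [this]
    exact H.one_mem
  set a := b / c with ha
  have ha0 : a ≠ 0 := div_ne_zero hb hc0
  obtain ⟨h', he⟩ := conj_tr h (Pi.single j a) (Pi.single k 1) (single_dot_ne hjk a 1)
  have hmem : h * el hjk a * h⁻¹ ∈ H := H.mul_mem (H.mul_mem hh (RR_lt hU (le_of_lt (lt_of_lt_of_le hj hk)) hjk a)) (H.inv_mem hh)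
  have he' : h * el hjk a * h⁻¹ = tr ((h : Matrix (Fin d) (Fin d) F) *ᵥ Pi.single j a)
      (Pi.single k 1 ᵥ* ((h⁻¹ : SpecialLinearGroup (Fin d) F) : Matrix (Fin d) (Fin d) F)) h' := he
  rw [he'] at hmem
  have hx : ∀ i, ((h : Matrix (Fin d) (Fin d) F) *ᵥ Pi.single j a) i = (h : Matrix (Fin d) (Fin d) F) i j * a := by
    intro i
    rw [mulVec, dotProduct_single]
  have hψ : ∀ i, ((Pi.single k 1 : Fin d → F) ᵥ* ((h⁻¹ : SpecialLinearGroup (Fin d) F) : Matrix (Fin d) (Fin d) F)) i =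
      ((h⁻¹ : SpecialLinearGroup (Fin d) F) : Matrix (Fin d) (Fin d) F) k i := by
    intro i
    rw [vecMul, single_dotProduct, one_mul]
  obtain ⟨h'', hiff⟩ := tr_normal hU h' (s := s) (t := t) (lt_of_lt_of_le htm' hms) (by rw [hx]; exact mul_ne_zero hss ha0)
    (by intro i hi; rw [hx, hsm i hi, zero_mul]) (by rw [hψ]; exact htt) (by intro i hi; rw [hψ]; exact htm i hi)
  have h3 := hiff.1 hmem
  rw [tr_eq_el hst, hx, hψ] at h3
  have e4 : (h : Matrix (Fin d) (Fin d) F) s j * a * ((h⁻¹ : SpecialLinearGroup (Fin d) F) : Matrix (Fin d) (Fin d) F) k t = b := by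
    have : (h : Matrix (Fin d) (Fin d) F) s j * a * ((h⁻¹ : SpecialLinearGroup (Fin d) F) : Matrix (Fin d) (Fin d) F) k t = c * a := by
      rw [hc]; ring
    rw [this, ha]
    field_simp
  rwa [e4] at h3

theorem claim3 {H : Subgroup (SpecialLinearGroup (Fin d) F)} (hU : Ut d F ≤ H) {t : Fin d} (n : ℕ) : ∀ (s : Fin d), s.val = n → t ≤ s →
    (∀ m, t < m → m ≤ s → ∃ s' t' : Fin d, t' < m ∧ m ≤ s' ∧ RR H s' t') → RR H s t := by
  induction n using Nat.strong_induction_on with
  | _ n ih =>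
    intro s hsn hts hm
    rcases eq_or_lt_of_le hts with h0 | h0
    · intro hne
      exact absurd h0.symm hne
    obtain ⟨s', t', h1, h2, h3⟩ := hm s h0 le_rfl
    have h4 : RR H s t' := RR_trans (RR_lt hU h2) h3
    rcases le_or_gt t' t with h5 | h5
    · exact RR_trans h4 (RR_lt hU h5)
    · refine RR_trans h4 (ih t'.val (by rw [← hsn]; exact h1) t' rfl h5.le ?_)
      intro m hm1 hm2
      exact hm m hm1 (hm2.trans h1.le)

theorem claim1 {H : Subgroup (SpecialLinearGroup (Fin d) F)} (hU : Ut d F ≤ H) {x ψ : Fin d → F} (h : ψ ⬝ᵥ x = 0)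
    (hst : ∀ W : Submodule F (Fin d → F), Inv H W → ∀ v ∈ W, ((tr x ψ h : SpecialLinearGroup (Fin d) F) : Matrix (Fin d) (Fin d) F) *ᵥ v ∈ W) :
    tr x ψ h ∈ H := by
  by_cases hx : x = 0
  · have : tr x ψ h = 1 := by
      apply Subtype.ext
      rw [tr_val, hx, zero_vecMulVec, add_zero]
      rfl
    rw [this]; exact H.one_mem
  by_cases hψ : ψ = 0
  · have : tr x ψ h = 1 := by
      apply Subtype.ext
      rw [tr_val, hψ, vecMulVec_zero, add_zero]
      rfl
    rw [this]; exact H.one_mem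
  obtain ⟨i, hi⟩ := Function.ne_iff.1 hx
  obtain ⟨j, hj⟩ := Function.ne_iff.1 hψ
  obtain ⟨s, -, hs, hsm⟩ := exists_max (x := x) hi
  obtain ⟨t, -, ht, htm⟩ := exists_min (x := ψ) hj
  rcases lt_trichotomy s t with h1 | h1 | h1
  · -- upper
    apply hU
    apply tr_mem_Ut
    intro k l hkl
    by_cases hk : s < k
    · rw [hsm k hk, zero_mul]
    · rw [htm l (lt_of_le_of_lt (hkl.trans (not_lt.1 hk)) h1), mul_zero]
  · exfalso
    subst h1
    rw [dotProduct, Finset.sum_eq_single s] at h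
    · exact (mul_ne_zero ht hs) h
    · intro k _ hk
      rcases lt_or_gt_of_ne hk with h2 | h2
      · rw [htm k h2, zero_mul]
      · rw [hsm k h2, mul_zero]
    · intro h2; exact absurd (Finset.mem_univ s) h2
  · obtain ⟨h', hiff⟩ := tr_normal hU h h1 hs hsm ht htm
    rw [hiff, tr_eq_el (ne_of_gt h1)]
    refine claim3 hU s.val s rfl h1.le ?_ (ne_of_gt h1) _
    intro m hm1 hm2
    apply claim2 hU
    intro hinv
    have h3 := hst _ hinv (Pi.single t 1) (by
      intro k hk
      rw [Pi.single_eq_of_ne (ne_of_gt (lt_of_lt_of_le hm1 hk))]) s hm2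
    rw [tr_mulVec, Pi.add_apply, Pi.smul_apply, Pi.single_eq_of_ne (ne_of_gt h1), dotProduct_single, mul_one, zero_add, smul_eq_mul] at h3
    exact (mul_ne_zero ht hs) h3

end CfsgLib.Pm
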