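import Cfsg.Agent.LibPm18
import Cfsg.Agent.LibPm11

set_option autoImplicit false

/-! Overgroups of the unitriangular group in `SL_d(F)`, III (seat helper26). -/

namespace CfsgLib.Pm

open Matrix CfsgLib.FgSub CfsgLib.H7Pron Cfsg

variable {d : ℕ} {F : Type*} [Field F]

theorem vec_sum (x : Fin d → F) : x = ∑ i, x i • (Pi.single i (1 : F) : Fin d → F) := by
  ext j
  rw [Finset.sum_apply, Finset.sum_eq_single j]
  · simp
  · intro b _ hb
    rw [Pi.smul_apply, Pi.single_eq_of_ne (Ne.symm hb), smul_zero]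
  · intro h; exact absurd (Finset.mem_univ j) h

variable [Finite F]

theorem mem_of_lower {W : Submodule F (Fin d → F)} (hW : Inv (Ut d F) W) {x : Fin d → F} (hx : x ∈ W) {s : Fin d} (hs : x s ≠ 0)
    {i : Fin d} (hi : i < s) : (Pi.single i (1 : F) : Fin d → F) ∈ W := by
  have h1 : el (ne_of_lt hi) (x s)⁻¹ ∈ Ut d F := RR_lt (le_refl _) hi.le (ne_of_lt hi) _
  have h2 := hW _ h1 x hx
  unfold el at h2
  rw [tr_mulVec, single_dotProduct, one_mul] at h2
  have h3 := W.sub_mem h2 hx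
  rw [add_sub_cancel_left] at h3
  have e : x s • (Pi.single i (x s)⁻¹ : Fin d → F) = Pi.single i 1 := by
    rw [← Pi.single_smul, smul_eq_mul, mul_inv_cancel₀ hs]
  rwa [e] at h3

theorem mem_of_max {W : Submodule F (Fin d → F)} (hW : Inv (Ut d F) W) {x : Fin d → F} (hx : x ∈ W) {s : Fin d} (hs : x s ≠ 0)
    (hsm : ∀ j, s < j → x j = 0) {i : Fin d} (hi : i ≤ s) : (Pi.single i (1 : F) : Fin d → F) ∈ W := by
  rcases lt_or_eq_of_le hi with h1 | h1
  · exact mem_of_lower hW hx hs h1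
  subst h1
  have h2 : x i • (Pi.single i (1 : F) : Fin d → F) ∈ W := by
    have h3 : x i • (Pi.single i (1 : F) : Fin d → F) = x - ∑ j ∈ Finset.univ.erase i, x j • (Pi.single j (1 : F) : Fin d → F) := by
      rw [eq_sub_iff_add_eq, Finset.add_sum_erase _ (fun j => x j • (Pi.single j (1 : F) : Fin d → F)) (Finset.mem_univ i)]
      exact (vec_sum x).symm
    rw [h3]
    apply W.sub_mem hx
    apply W.sum_mem
    intro j hj
    have hji : j ≠ i := (Finset.mem_erase.1 hj).1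
    rcases lt_or_gt_of_ne hji with h4 | h4
    · exact W.smul_mem _ (mem_of_lower hW hx hs h4)
    · rw [hsm j h4, zero_smul]; exact W.zero_mem
  have h3 := W.smul_mem (x i)⁻¹ h2
  rwa [smul_smul, inv_mul_cancel₀ hs, one_smul] at h3

/-- invariant subspaces of the unitriangular group form a chain -/
theorem chain {W W' : Submodule F (Fin d → F)} (hW : Inv (Ut d F) W) (hW' : Inv (Ut d F) W') : W ≤ W' ∨ W' ≤ W := by
  by_cases h : W ≤ W'
  · exact Or.inl h
  right
  obtain ⟨x, hx, hx'⟩ := SetLike.not_le_iff_exists.1 h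
  have hx0 : x ≠ 0 := by rintro rfl; exact hx' W'.zero_mem
  obtain ⟨i, hi⟩ := Function.ne_iff.1 hx0
  obtain ⟨s, -, hs, hsm⟩ := exists_max (x := x) hi
  intro y hy
  rw [vec_sum y]
  apply W.sum_mem
  intro j _
  by_cases hj : j ≤ s
  · exact W.smul_mem _ (mem_of_max hW hx hs hsm hj)
  · by_cases hyj : y j = 0
    · rw [hyj, zero_smul]; exact W.zero_mem
    exfalso
    apply hx'
    rw [vec_sum x]
    apply W'.sum_mem
    intro k _
    by_cases hk : k ≤ s
    · exact W'.smul_mem _ (mem_of_lower hW' hy hyj (lt_of_le_of_lt hk (not_le.1 hj)))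
    · rw [hsm k (not_le.1 hk), zero_smul]; exact W'.zero_mem

theorem stab_of_inv {h : SpecialLinearGroup (Fin d) F} {W : Submodule F (Fin d → F)}
    (hst : ∀ w ∈ W, ((h⁻¹ : SpecialLinearGroup (Fin d) F) : Matrix (Fin d) (Fin d) F) *ᵥ w ∈ W) :
    ∀ w ∈ W, (h : Matrix (Fin d) (Fin d) F) *ᵥ w ∈ W := by
  have hpow : ∀ n : ℕ, ∀ w ∈ W, ((h⁻¹ ^ n : SpecialLinearGroup (Fin d) F) : Matrix (Fin d) (Fin d) F) *ᵥ w ∈ W := by
    intro n
    induction n with
    | zero =>
      intro w hw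
      rw [pow_zero]
      change (1 : Matrix (Fin d) (Fin d) F) *ᵥ w ∈ _
      rw [one_mulVec]; exact hw
    | succ n ih =>
      intro w hw
      rw [pow_succ, cm, ← mulVec_mulVec]
      exact ih _ (hst w hw)
  have e : h = h⁻¹ ^ (orderOf h⁻¹ - 1) := by
    have : h⁻¹ ^ (orderOf h⁻¹ - 1) = (h⁻¹)⁻¹ := by
      rw [eq_inv_iff_mul_eq_one, ← pow_succ, Nat.sub_add_cancel (orderOf_pos _), pow_orderOf_eq_one]
    rw [this, inv_inv]
  intro w hw
  rw [e]
  exact hpow _ w hw

theorem norm_stab {n : SpecialLinearGroup (Fin d) F} (hn : cj n (Ut d F) = Ut d F) {W : Submodule F (Fin d → F)}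
    (hW : Inv (Ut d F) W) : ∀ w ∈ W, (n : Matrix (Fin d) (Fin d) F) *ᵥ w ∈ W := by
  have hinv : ((n⁻¹ : SpecialLinearGroup (Fin d) F) : Matrix (Fin d) (Fin d) F) * (n : Matrix (Fin d) (Fin d) F) = 1 := by
    rw [← cm, inv_mul_cancel]; rfl
  set W' : Submodule F (Fin d → F) := W.comap (Matrix.mulVecLin ((n⁻¹ : SpecialLinearGroup (Fin d) F) : Matrix (Fin d) (Fin d) F)) with hW'd
  have hmem : ∀ v, v ∈ W' ↔ ((n⁻¹ : SpecialLinearGroup (Fin d) F) : Matrix (Fin d) (Fin d) F) *ᵥ v ∈ W := fun v => Iff.rfl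
  have hW' : Inv (Ut d F) W' := by
    intro u hu v hv
    rw [hmem] at hv ⊢
    have hu' : n⁻¹ * u * n ∈ Ut d F := by
      rw [← mem_cj, hn]; exact hu
    have := hW _ hu' _ hv
    have e : ((n⁻¹ * u * n : SpecialLinearGroup (Fin d) F) : Matrix (Fin d) (Fin d) F) *ᵥ
        (((n⁻¹ : SpecialLinearGroup (Fin d) F) : Matrix (Fin d) (Fin d) F) *ᵥ v) =
        ((n⁻¹ : SpecialLinearGroup (Fin d) F) : Matrix (Fin d) (Fin d) F) *ᵥ ((u : Matrix (Fin d) (Fin d) F) *ᵥ v) := by
      rw [mulVec_mulVec, mulVec_mulVec, ← cm, ← cm, mul_inv_cancel_right]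
    rwa [e] at this
  rcases chain hW hW' with h1 | h1
  · exact stab_of_inv (fun w hw => (hmem w).1 (h1 hw))
  · intro w hw
    apply h1
    rw [hmem, mulVec_mulVec, hinv, one_mulVec]
    exact hw

/-- elements normalizing the unitriangular group are upper triangular -/
theorem norm_upper {n : SpecialLinearGroup (Fin d) F} (hn : cj n (Ut d F) = Ut d F) {i j : Fin d} (hij : j < i) :
    (n : Matrix (Fin d) (Fin d) F) i j = 0 := by
  let W : Submodule F (Fin d → F) :=
    { carrier := {x | ∀ i, j < i → x i = 0}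
      zero_mem' := fun i _ => rfl
      add_mem' := by
        intro a b ha hb i hi
        rw [Pi.add_apply, ha i hi, hb i hi, add_zero]
      smul_mem' := by
        intro c x hx i hi
        rw [Pi.smul_apply, hx i hi, smul_zero] }
  have hW : Inv (Ut d F) W := by
    intro u hu x hx k hk
    rw [mulVec, dotProduct]
    apply Finset.sum_eq_zero
    intro l _
    by_cases hl : l < k
    · rw [mem_Ut.1 hu k l hl.le, one_apply_ne (ne_of_gt hl), zero_mul]
    · rw [hx l (lt_of_lt_of_le hk (not_lt.1 hl)), mul_zero]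
  have h1 := norm_stab hn hW (Pi.single j 1) (by
    intro k hk
    rw [Pi.single_eq_of_ne (ne_of_gt hk)]) i hij
  rw [mulVec, dotProduct_single, mul_one] at h1
  exact h1

theorem norm_mul {n m : SpecialLinearGroup (Fin d) F} (hn : cj n (Ut d F) = Ut d F) (hm : cj m (Ut d F) = Ut d F) :
    cj (n * m) (Ut d F) = Ut d F := by rw [← cj_cj, hm, hn]

theorem norm_inv {n : SpecialLinearGroup (Fin d) F} (hn : cj n (Ut d F) = Ut d F) : cj n⁻¹ (Ut d F) = Ut d F := cj_inv_eq hn

theorem norm_diag {n m : SpecialLinearGroup (Fin d) F} (hn : cj n (Ut d F) = Ut d F) (hm : cj m (Ut d F) = Ut d F) (i : Fin d) :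
    ((n * m : SpecialLinearGroup (Fin d) F) : Matrix (Fin d) (Fin d) F) i i =
      (n : Matrix (Fin d) (Fin d) F) i i * (m : Matrix (Fin d) (Fin d) F) i i := by
  rw [cm, Matrix.mul_apply, Finset.sum_eq_single i]
  · intro k _ hk
    rcases lt_or_gt_of_ne hk with h1 | h1
    · rw [norm_upper hn h1, zero_mul]
    · rw [norm_upper hm h1, mul_zero]
  · intro h; exact absurd (Finset.mem_univ i) h

theorem mem_Ut_of_norm {n : SpecialLinearGroup (Fin d) F} (hn : cj n (Ut d F) = Ut d F)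
    (h : ∀ i, (n : Matrix (Fin d) (Fin d) F) i i = 1) : n ∈ Ut d F := by
  rw [mem_Ut]
  intro i j hij
  rcases lt_or_eq_of_le hij with h1 | h1
  · rw [norm_upper hn h1, one_apply_ne (ne_of_gt h1)]
  · subst h1
    rw [h, one_apply_eq]

theorem norm_comm {n m : SpecialLinearGroup (Fin d) F} (hn : cj n (Ut d F) = Ut d F) (hm : cj m (Ut d F) = Ut d F) :
    n * m * n⁻¹ * m⁻¹ ∈ Ut d F := by
  apply mem_Ut_of_norm (norm_mul (norm_mul (norm_mul hn hm) (norm_inv hn)) (norm_inv hm))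
  intro i
  have h1 := norm_diag hn (norm_inv hn) i
  have h2 := norm_diag hm (norm_inv hm) i
  rw [mul_inv_cancel] at h1 h2
  have h3 : ((1 : SpecialLinearGroup (Fin d) F) : Matrix (Fin d) (Fin d) F) i i = 1 := one_apply_eq i
  rw [h3] at h1 h2
  rw [norm_diag (norm_mul (norm_mul hn hm) (norm_inv hn)) (norm_inv hm), norm_diag (norm_mul hn hm) (norm_inv hn), norm_diag hn hm]
  calc _ = ((n : Matrix (Fin d) (Fin d) F) i i * ((n⁻¹ : SpecialLinearGroup (Fin d) F) : Matrix (Fin d) (Fin d) F) i i) *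
      ((m : Matrix (Fin d) (Fin d) F) i i * ((m⁻¹ : SpecialLinearGroup (Fin d) F) : Matrix (Fin d) (Fin d) F) i i) := by ring
    _ = 1 := by rw [← h1, ← h2, mul_one]

theorem norm_pow {n : SpecialLinearGroup (Fin d) F} (hn : cj n (Ut d F) = Ut d F) (k : ℕ) : cj (n ^ k) (Ut d F) = Ut d F ∧
    ∀ i, ((n ^ k : SpecialLinearGroup (Fin d) F) : Matrix (Fin d) (Fin d) F) i i = ((n : Matrix (Fin d) (Fin d) F) i i) ^ k := by
  induction k with
  | zero =>
    refine ⟨by rw [pow_zero, cj_eq_of_mem (Subgroup.one_mem _)], fun i => ?_⟩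
    rw [pow_zero, pow_zero]
    exact one_apply_eq i
  | succ k ih =>
    refine ⟨by rw [pow_succ]; exact norm_mul ih.1 hn, fun i => ?_⟩
    rw [pow_succ, norm_diag ih.1 hn, ih.2, pow_succ]

end CfsgLib.Pm
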