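import Mathlib

set_option autoImplicit false

/-! 2-adic valuations of orders of general linear groups (seat helper26). -/

namespace CfsgLib.Pm

/-- valuation of `q^n - 1` -/
def vq (q n : ℕ) : ℕ := padicValNat 2 (q ^ n - 1)

theorem vq_even {q : ℕ} (hq : Odd q) (hq1 : 1 < q) {n : ℕ} (hn : n ≠ 0) (he : Even n) :
    vq q n + 1 = padicValNat 2 (q + 1) + padicValNat 2 (q - 1) + padicValNat 2 n := by
  have h2 : ¬ 2 ∣ q := by
    intro h
    exact (Nat.not_even_iff_odd.2 hq) (even_iff_two_dvd.2 h)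
  have h3 : 2 ∣ q - 1 := even_iff_two_dvd.1 (Nat.Odd.sub_odd hq odd_one)
  have := padicValNat.pow_two_sub_pow (x := q) (y := 1) hq1 h3 h2 hn he
  rwa [one_pow] at this

theorem vq_odd {q : ℕ} (hq : Odd q) (hq1 : 1 < q) {n : ℕ} (ho : Odd n) : vq q n = vq q 1 := by
  unfold vq
  rw [pow_one]
  have h2 : ¬ (2 : ℤ) ∣ (q : ℤ) := by
    intro h
    have : 2 ∣ q := by exact_mod_cast h
    exact (Nat.not_even_iff_odd.2 hq) (even_iff_two_dvd.2 this)
  have h3 : (2 : ℤ) ∣ (q : ℤ) - 1 := by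
    obtain ⟨k, hk⟩ := hq
    exact ⟨k, by rw [hk]; push_cast; ring⟩
  have h4 : ¬ (2 : ℕ) ∣ n := by
    intro h
    exact (Nat.not_even_iff_odd.2 ho) (even_iff_two_dvd.2 h)
  -- factor
  have h5 : (q : ℤ) ^ n - 1 = (∑ i ∈ Finset.range n, (q : ℤ) ^ i) * ((q : ℤ) - 1) := (geom_sum_mul (q : ℤ) n).symm
  have h6 : Odd (∑ i ∈ Finset.range n, q ^ i) := by
    rw [Finset.odd_sum_iff_odd_card_odd]
    have : (Finset.range n).filter (fun i => Odd (q ^ i)) = Finset.range n := by
      apply Finset.filter_true_of_mem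
      intro i _
      exact hq.pow
    rw [this, Finset.card_range]
    exact ho
  have h7 : q ^ n - 1 = (∑ i ∈ Finset.range n, q ^ i) * (q - 1) := by
    zify [Nat.one_le_pow n q (by omega), (show 1 ≤ q by omega)]
    exact h5
  rw [h7, padicValNat.mul]
  · have : padicValNat 2 (∑ i ∈ Finset.range n, q ^ i) = 0 := by
      apply padicValNat.eq_zero_of_not_dvd
      intro h
      exact (Nat.not_even_iff_odd.2 h6) (even_iff_two_dvd.2 h)
    rw [this, zero_add]
  · intro h
    rw [h] at h6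
    exact absurd h6 (by decide)
  · omega

theorem vq_congr {q : ℕ} (hq : Odd q) (hq1 : 1 < q) {n n' : ℕ} (hn : n ≠ 0) (hn' : n' ≠ 0) (h : padicValNat 2 n = padicValNat 2 n') :
    vq q n = vq q n' := by
  have hpar : ∀ m : ℕ, m ≠ 0 → (Even m ↔ padicValNat 2 m ≠ 0) := by
    intro m hm
    rw [even_iff_two_dvd, dvd_iff_padicValNat_ne_zero hm]
  rcases Nat.even_or_odd n with he | ho
  · have he' : Even n' := (hpar n' hn').2 (by rw [← h]; exact (hpar n hn).1 he)
    have e1 := vq_even hq hq1 hn he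
    have e2 := vq_even hq hq1 hn' he'
    rw [h] at e1
    omega
  · have ho' : Odd n' := by
      rw [← Nat.not_even_iff_odd, hpar n' hn', ← h, ← hpar n hn, Nat.not_even_iff_odd]
      exact ho
    rw [vq_odd hq hq1 ho, vq_odd hq hq1 ho']

theorem val_add {j i : ℕ} (hi : i ≠ 0) (hij : i < 2 ^ j) : padicValNat 2 (2 ^ j + i) = padicValNat 2 i := by
  obtain ⟨s, o, ho, hio⟩ := Nat.exists_eq_two_pow_mul_odd hi
  have ho0 : o ≠ 0 := by rintro rfl; exact absurd ho (by decide)
  have hs : s < j := by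
    by_contra hcon
    have h1 : 2 ^ j ≤ 2 ^ s := Nat.pow_le_pow_right (by norm_num) (by omega)
    have h2 : 2 ^ s ≤ 2 ^ s * o := Nat.le_mul_of_pos_right _ (Nat.pos_of_ne_zero ho0)
    omega
  have h3 : 2 ^ j + i = 2 ^ s * (2 ^ (j - s) + o) := by
    rw [mul_add, ← pow_add, Nat.add_sub_cancel' hs.le, hio]
  have hv : ∀ o' : ℕ, Odd o' → padicValNat 2 (2 ^ s * o') = s := by
    intro o' ho'
    have h0 : o' ≠ 0 := by rintro rfl; exact absurd ho' (by decide)
    rw [padicValNat.mul (by positivity) h0, padicValNat.prime_pow, padicValNat.eq_zero_of_not_dvd, add_zero]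
    intro h
    exact (Nat.not_even_iff_odd.2 ho') (even_iff_two_dvd.2 h)
  rw [h3, hio, hv _ ho, hv]
  apply Even.add_odd _ ho
  rw [Nat.even_pow]
  exact ⟨even_two, by omega⟩

/-- the order of `GL_n` -/
def cg (q n : ℕ) : ℕ := ∏ i : Fin n, (q ^ n - q ^ (i : ℕ))

theorem cg_ne {q n : ℕ} (hq1 : 1 < q) : cg q n ≠ 0 := by
  unfold cg
  rw [Finset.prod_ne_zero_iff]
  intro i _
  have : q ^ (i : ℕ) < q ^ n := Nat.pow_lt_pow_right hq1 i.2
  omega

theorem val_cg {q : ℕ} (hq : Odd q) (hq1 : 1 < q) (n : ℕ) : padicValNat 2 (cg q n) = ∑ i ∈ Finset.range n, vq q (i + 1) := by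
  have h2 : ¬ 2 ∣ q := by
    intro h
    exact (Nat.not_even_iff_odd.2 hq) (even_iff_two_dvd.2 h)
  have h1 : ∀ s : Finset (Fin n), padicValNat 2 (∏ i ∈ s, (q ^ n - q ^ (i : ℕ))) = ∑ i ∈ s, padicValNat 2 (q ^ n - q ^ (i : ℕ)) := by
    intro s
    induction s using Finset.induction_on with
    | empty => simp
    | insert a s ha ih =>
      rw [Finset.prod_insert ha, Finset.sum_insert ha, padicValNat.mul, ih]
      · have : q ^ (a : ℕ) < q ^ n := Nat.pow_lt_pow_right hq1 a.2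
        omega
      · rw [Finset.prod_ne_zero_iff]
        intro i _
        have : q ^ (i : ℕ) < q ^ n := Nat.pow_lt_pow_right hq1 i.2
        omega
  unfold cg
  rw [h1]
  have h3 : ∀ i : Fin n, padicValNat 2 (q ^ n - q ^ (i : ℕ)) = vq q (n - i) := by
    intro i
    have h4 : q ^ n - q ^ (i : ℕ) = q ^ (i : ℕ) * (q ^ (n - i) - 1) := by
      rw [Nat.mul_sub, mul_one, ← pow_add, Nat.add_sub_cancel' i.2.le]
    rw [h4, padicValNat.mul (by positivity)]
    · rw [padicValNat.eq_zero_of_not_dvd (fun h => h2 (Nat.prime_two.dvd_of_dvd_pow h)), zero_add]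
      rfl
    · have : q ^ 0 < q ^ (n - i) := Nat.pow_lt_pow_right hq1 (by omega)
      rw [pow_zero] at this
      omega
  rw [Finset.sum_congr rfl fun i _ => h3 i, Finset.sum_range, ← Equiv.sum_comp Fin.revPerm]
  apply Finset.sum_congr rfl
  intro i _
  congr 1
  rw [Fin.revPerm_apply, Fin.val_rev]
  omega

theorem val_double {q : ℕ} (hq : Odd q) (hq1 : 1 < q) {j : ℕ} (hj : 1 ≤ j) :
    padicValNat 2 (cg q (2 ^ j + 2 ^ j)) = 1 + 2 * padicValNat 2 (cg q (2 ^ j)) := by
  rw [val_cg hq hq1, val_cg hq hq1, Finset.sum_range_add]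
  have hk : 0 < 2 ^ j := by positivity
  obtain ⟨k, hk'⟩ : ∃ k, 2 ^ j = k + 1 := ⟨2 ^ j - 1, by omega⟩
  have h1 : ∑ x ∈ Finset.range (2 ^ j), vq q (2 ^ j + x + 1) = 1 + ∑ x ∈ Finset.range (2 ^ j), vq q (x + 1) := by
    have h2 : ∀ x ∈ Finset.range k, vq q (2 ^ j + x + 1) = vq q (x + 1) := by
      intro x hx
      rw [Finset.mem_range] at hx
      apply vq_congr hq hq1 (by omega) (by omega)
      rw [add_assoc]
      exact val_add (by omega) (by omega)
    have h3 : vq q (2 ^ j + k + 1) = vq q (k + 1) + 1 := by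
      have h4 : 2 ^ j + k + 1 = 2 * 2 ^ j := by omega
      have h5 : Even (2 ^ j) := Nat.even_pow.2 ⟨even_two, by omega⟩
      have e1 := vq_even hq hq1 (n := 2 * 2 ^ j) (by positivity) (by exact (even_two.mul_right _))
      have e2 := vq_even hq hq1 (n := 2 ^ j) (by positivity) h5
      rw [padicValNat.mul (by norm_num) (by positivity), padicValNat.self (by norm_num)] at e1
      rw [h4, ← hk']
      omega
    have e3 : ∑ x ∈ Finset.range (2 ^ j), vq q (2 ^ j + x + 1) = ∑ x ∈ Finset.range (k + 1), vq q (2 ^ j + x + 1) := by rw [hk']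
    have e4 : ∑ x ∈ Finset.range (2 ^ j), vq q (x + 1) = ∑ x ∈ Finset.range (k + 1), vq q (x + 1) := by rw [hk']
    rw [e3, e4, Finset.sum_range_succ, Finset.sum_range_succ, Finset.sum_congr rfl h2, h3]
    ring
  rw [h1]
  ring

end CfsgLib.Pm
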