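import Cfsg.Agent.LibPm19

set_option autoImplicit false

/-! Overgroups of a Sylow `p`-subgroup in `SL_d(F)` in characteristic `p` are pronormal (seat helper26). -/

namespace CfsgLib.Pm

open Matrix CfsgLib.FgSub CfsgLib.H7Pron Cfsg
open scoped Pointwise

variable {d : ℕ} {F : Type*} [Field F] [Finite F]

theorem Ut_pow {p : ℕ} [Fact p.Prime] [CharP F p] {g : SpecialLinearGroup (Fin d) F} (hg : g ∈ Ut d F) : g ^ p ^ d = 1 := by
  have hup : (g : Matrix (Fin d) (Fin d) F).IsUpperTriangular := by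
    intro i j hij
    have hij' : j < i := hij
    rw [mem_Ut.1 hg i j hij'.le, one_apply_ne (ne_of_gt hij')]
  have h1 := Matrix.aeval_self_charpoly (g : Matrix (Fin d) (Fin d) F)
  rw [charpoly_of_isUpperTriangular _ hup] at h1
  have h2 : ∏ i : Fin d, (Polynomial.X - Polynomial.C ((g : Matrix (Fin d) (Fin d) F) i i)) = (Polynomial.X - 1) ^ d := by
    rw [Finset.prod_congr rfl (fun i _ => by rw [mem_Ut.1 hg i i le_rfl, one_apply_eq, map_one])]
    simp
  rw [h2, map_pow, map_sub, Polynomial.aeval_X, map_one] at h1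
  have hp : p.Prime := Fact.out
  have hle : d ≤ p ^ d := (Nat.lt_pow_self hp.one_lt).le
  have h3 : ((g : Matrix (Fin d) (Fin d) F) - 1) ^ p ^ d = 0 := pow_eq_zero_of_le hle h1
  rcases Nat.eq_zero_or_pos d with hd | hd
  · subst hd
    exact Subsingleton.elim _ _
  haveI : Nonempty (Fin d) := ⟨⟨0, hd⟩⟩
  haveI : CharP (Matrix (Fin d) (Fin d) F) p := inferInstance
  rw [sub_pow_char_pow_of_commute p d (Commute.one_right _), one_pow, sub_eq_zero] at h3
  exact Subtype.ext ((Matrix.SpecialLinearGroup.coe_pow g _).trans h3)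

theorem Ut_pgroup {p : ℕ} [Fact p.Prime] [CharP F p] : IsPGroup p (Ut d F) := by
  rintro ⟨g, hg⟩
  exact ⟨d, Subtype.ext (Ut_pow hg)⟩

theorem Ut_sylow {p : ℕ} [hp : Fact p.Prime] [CharP F p] : ∃ S : Sylow p (SpecialLinearGroup (Fin d) F), (S : Subgroup (SpecialLinearGroup (Fin d) F)) = Ut d F := by
  obtain ⟨Q, hQ⟩ := (Ut_pgroup (d := d) (F := F) (p := p)).exists_le_sylow
  refine ⟨Q, ?_⟩
  by_contra hne
  haveI : Group.IsNilpotent Q := Q.isPGroup'.isNilpotent
  have hnc : NormalizerCondition Q := Group.normalizerCondition_of_isNilpotent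
  have hlt : (Ut d F).subgroupOf Q < ⊤ := by
    rw [lt_top_iff_ne_top]
    intro h
    rw [Subgroup.subgroupOf_eq_top] at h
    exact hne (le_antisymm h hQ)
  obtain ⟨g, hg, hgU⟩ := SetLike.exists_of_lt (hnc _ hlt)
  have hgn : cj (g : SpecialLinearGroup (Fin d) F) (Ut d F) = Ut d F := by
    apply le_antisymm
    · intro y hy
      rw [mem_cj] at hy
      have hyQ : (g : SpecialLinearGroup (Fin d) F)⁻¹ * y * g ∈ Q := hQ hy
      have h1 := (Subgroup.mem_normalizer_iff.1 hg ⟨_, hyQ⟩).1 hy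
      have h2 : (g : SpecialLinearGroup (Fin d) F) * ((g : SpecialLinearGroup (Fin d) F)⁻¹ * y * g) * (g : SpecialLinearGroup (Fin d) F)⁻¹ ∈ Ut d F := h1
      have e : (g : SpecialLinearGroup (Fin d) F) * ((g : SpecialLinearGroup (Fin d) F)⁻¹ * y * g) * (g : SpecialLinearGroup (Fin d) F)⁻¹ = y := by
        rw [mul_assoc, mul_inv_cancel_right, mul_inv_cancel_left]
      rwa [e] at h2
    · intro y hy
      rw [mem_cj]
      have hyQ : y ∈ Q := hQ hy
      have hg' : g⁻¹ ∈ Subgroup.normalizer (((Ut d F).subgroupOf Q : Subgroup Q) : Set Q) := Subgroup.inv_mem _ hg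
      have h1 := (Subgroup.mem_normalizer_iff.1 hg' ⟨y, hyQ⟩).1 hy
      have h2 : (g : SpecialLinearGroup (Fin d) F)⁻¹ * y * ((g : SpecialLinearGroup (Fin d) F)⁻¹)⁻¹ ∈ Ut d F := h1
      rwa [inv_inv] at h2
  apply hgU
  show (g : SpecialLinearGroup (Fin d) F) ∈ Ut d F
  apply mem_Ut_of_norm hgn
  intro i
  obtain ⟨k, hk⟩ := Q.isPGroup' g
  have hk' : (g : SpecialLinearGroup (Fin d) F) ^ p ^ k = 1 := congrArg Subtype.val hk
  have h3 := (norm_pow hgn (p ^ k)).2 i
  rw [hk'] at h3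
  have h4 : ((1 : SpecialLinearGroup (Fin d) F) : Matrix (Fin d) (Fin d) F) i i = 1 := one_apply_eq i
  rw [h4] at h3
  have h5 : (((g : SpecialLinearGroup (Fin d) F) : Matrix (Fin d) (Fin d) F) i i - 1) ^ p ^ k = 0 := by
    rw [sub_pow_char_pow_of_commute p k (Commute.one_right _), one_pow, ← h3, sub_self]
  exact sub_eq_zero.1 ((pow_eq_zero_iff (pow_pos hp.out.pos k).ne').1 h5)

/-- the group generated by transvections -/
def MM (H : Subgroup (SpecialLinearGroup (Fin d) F)) : Subgroup (SpecialLinearGroup (Fin d) F) :=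
  Subgroup.closure {τ | ∃ (x ψ : Fin d → F) (h : ψ ⬝ᵥ x = 0), τ = tr x ψ h ∧ ∀ W : Submodule F (Fin d → F), Inv H W → ∀ v ∈ W,
    (τ : Matrix (Fin d) (Fin d) F) *ᵥ v ∈ W}

theorem MM_le {H : Subgroup (SpecialLinearGroup (Fin d) F)} (hU : Ut d F ≤ H) : MM H ≤ H := by
  unfold MM
  rw [Subgroup.closure_le]
  rintro τ ⟨x, ψ, h, rfl, hW⟩
  exact claim1 hU h hW

theorem MM_conj {H : Subgroup (SpecialLinearGroup (Fin d) F)} {g : SpecialLinearGroup (Fin d) F}
    (hg : ∀ W : Submodule F (Fin d → F), Inv H W → ∀ v ∈ W, (g : Matrix (Fin d) (Fin d) F) *ᵥ v ∈ W)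
    {m : SpecialLinearGroup (Fin d) F} (hm : m ∈ MM H) : g * m * g⁻¹ ∈ MM H := by
  have hg' : ∀ W : Submodule F (Fin d → F), Inv H W → ∀ v ∈ W, ((g⁻¹ : SpecialLinearGroup (Fin d) F) : Matrix (Fin d) (Fin d) F) *ᵥ v ∈ W := by
    intro W hW
    apply stab_of_inv
    rw [inv_inv]
    exact hg W hW
  unfold MM at hm
  induction hm using Subgroup.closure_induction with
  | mem τ hτ =>
    obtain ⟨x, ψ, h, rfl, hW⟩ := hτ
    obtain ⟨h', he⟩ := conj_tr g x ψ h
    apply Subgroup.subset_closure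
    refine ⟨_, _, h', he, ?_⟩
    intro W hWH v hv
    rw [cm, cm, ← mulVec_mulVec, ← mulVec_mulVec]
    exact hg W hWH _ (hW W hWH _ (hg' W hWH v hv))
  | one => rw [mul_one, mul_inv_cancel]; exact Subgroup.one_mem _
  | mul a b _ _ ha hb =>
    have e : g * (a * b) * g⁻¹ = (g * a * g⁻¹) * (g * b * g⁻¹) := by
      rw [mul_assoc (g * a) g⁻¹, ← mul_assoc g⁻¹, ← mul_assoc g⁻¹, inv_mul_cancel, one_mul, ← mul_assoc, ← mul_assoc]
    rw [e]
    exact Subgroup.mul_mem _ ha hb
  | inv a _ ha =>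
    have e : g * a⁻¹ * g⁻¹ = (g * a * g⁻¹)⁻¹ := by
      rw [_root_.mul_inv_rev, _root_.mul_inv_rev, inv_inv, mul_assoc]
    rw [e]
    exact Subgroup.inv_mem _ ha

theorem tr_inv (x ψ : Fin d → F) (h : ψ ⬝ᵥ x = 0) (h' : ψ ⬝ᵥ (-x) = 0) : tr x ψ h * tr (-x) ψ h' = 1 := by
  apply Subtype.ext
  rw [cm, tr_val, tr_val, mul_add, add_mul, add_mul, vecMulVec_mul_vecMulVec, neg_vecMulVec, h']
  simp

theorem Ut_le_MM {H : Subgroup (SpecialLinearGroup (Fin d) F)} (hU : Ut d F ≤ H) : Ut d F ≤ MM H := by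
  have key : ∀ c : ℕ, c ≤ d → ∀ u ∈ Ut d F, (∀ i j : Fin d, c ≤ j.val → (u : Matrix (Fin d) (Fin d) F) i j = (1 : Matrix (Fin d) (Fin d) F) i j) → u ∈ MM H := by
    intro c
    induction c with
    | zero =>
      intro _ u hu h
      have : u = 1 := Subtype.ext (by ext i j; exact h i j (Nat.zero_le _))
      rw [this]; exact Subgroup.one_mem _
    | succ c ih =>
      intro hc u hu h
      have hcd : c < d := hc
      set c' : Fin d := ⟨c, hcd⟩ with hc'
      set x : Fin d → F := fun i => if i < c' then (u : Matrix (Fin d) (Fin d) F) i c' else 0 with hx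
      have hxc : x c' = 0 := by simp [hx]
      have h0 : (Pi.single c' (1 : F) : Fin d → F) ⬝ᵥ x = 0 := by rw [single_dotProduct, hxc, mul_zero]
      have h0' : (Pi.single c' (1 : F) : Fin d → F) ⬝ᵥ (-x) = 0 := by rw [dotProduct_neg, h0, neg_zero]
      have hmemU : ∀ (y : Fin d → F) (hy : (Pi.single c' (1 : F) : Fin d → F) ⬝ᵥ y = 0), (∀ i, c' ≤ i → y i = 0) →
          tr y (Pi.single c' 1) hy ∈ Ut d F := by
        intro y hy hyi
        apply tr_mem_Ut
        intro i j hij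
        by_cases hj : j = c'
        · rw [hj] at hij
          rw [hyi i hij, zero_mul]
        · rw [Pi.single_eq_of_ne hj, mul_zero]
      have hx0 : ∀ i, c' ≤ i → x i = 0 := by
        intro i hi
        simp only [hx]
        rw [if_neg (not_lt.2 hi)]
      have hτU := hmemU x h0 hx0
      have hτU' := hmemU (-x) h0' (by intro i hi; rw [Pi.neg_apply, hx0 i hi, neg_zero])
      have hτM : tr x (Pi.single c' 1) h0 ∈ MM H := by
        apply Subgroup.subset_closure
        refine ⟨_, _, h0, rfl, ?_⟩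
        intro W hW
        exact hW _ (hU hτU)
      have hu' : tr (-x) (Pi.single c' 1) h0' * u ∈ MM H := by
        apply ih (by omega) _ ((Ut d F).mul_mem hτU' hu)
        intro i j hj
        rw [cm, tr_val, add_mul, one_mul, Matrix.add_apply, vecMulVec_mul, vecMulVec_apply, vecMul, single_dotProduct, one_mul, Pi.neg_apply]
        rcases Nat.lt_or_ge c j.val with h3 | h3
        · have hne : c' ≠ j := by
            intro h4
            rw [← h4] at h3
            exact lt_irrefl _ h3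
          rw [h i j h3, h c' j h3, one_apply_ne hne, mul_zero, add_zero]
        · have h4 : j = c' := by
            apply Fin.ext
            show j.val = c
            omega
          rw [h4]
          have h5 : (u : Matrix (Fin d) (Fin d) F) c' c' = 1 := by rw [mem_Ut.1 hu c' c' le_rfl, one_apply_eq]
          rw [h5, mul_one]
          by_cases hi : i < c'
          · have : x i = (u : Matrix (Fin d) (Fin d) F) i c' := by simp only [hx]; rw [if_pos hi]
            rw [this, one_apply_ne (ne_of_lt hi), add_neg_cancel]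
          · rw [hx0 i (not_lt.1 hi), neg_zero, add_zero, mem_Ut.1 hu i c' (not_lt.1 hi)]
      have e : u = tr x (Pi.single c' 1) h0 * (tr (-x) (Pi.single c' 1) h0' * u) := by
        rw [← mul_assoc, tr_inv, one_mul]
      rw [e]
      exact Subgroup.mul_mem _ hτM hu'
  intro u hu
  exact key d le_rfl u hu (fun i j hj => absurd j.2 (not_lt.2 hj))

theorem pron_char {p : ℕ} [hp : Fact p.Prime] [CharP F p] : ∃ S : Sylow p (SpecialLinearGroup (Fin d) F),
    ∀ H : Subgroup (SpecialLinearGroup (Fin d) F), (S : Subgroup (SpecialLinearGroup (Fin d) F)) ≤ H → IsPronormal H := by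
  obtain ⟨S, hS⟩ := Ut_sylow (d := d) (F := F) (p := p)
  refine ⟨S, ?_⟩
  intro H hSH
  have hU : Ut d F ≤ H := by rw [← hS]; exact hSH
  apply pron_of_norm S hSH
  intro n hn
  rw [hS] at hn
  have hMle := MM_le hU
  have hUM := Ut_le_MM hU
  have hstab : ∀ W : Submodule F (Fin d → F), Inv H W → Inv (Ut d F) W := fun W hW h hh => hW h (hU hh)
  apply cj_eq_of_le
  intro y hy
  rw [mem_cj] at hy
  set h := n⁻¹ * y * n with hh
  have hyn : y = n * h * n⁻¹ := by rw [hh]; rw [mul_assoc n⁻¹, mul_inv_cancel_left, mul_inv_cancel_right]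
  have hgS : ((h • S : Sylow p (SpecialLinearGroup (Fin d) F)) : Subgroup (SpecialLinearGroup (Fin d) F)) = cj h (S : Subgroup (SpecialLinearGroup (Fin d) F)) := by
    ext y
    rw [mem_cj]
    change y ∈ (MulAut.conj h • (S : Subgroup (SpecialLinearGroup (Fin d) F))) ↔ _
    rw [Subgroup.mem_pointwise_smul_iff_inv_smul_mem]
    simp [MulAut.smul_def]
  obtain ⟨x, hx, hxe⟩ := conj_in (K := MM H) (h • S) S (by
    rw [hgS, hS]
    intro z hz
    rw [mem_cj] at hz
    have := MM_conj (H := H) (g := h) (fun W hW => hW h hy) (hUM hz)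
    have e : h * (h⁻¹ * z * h) * h⁻¹ = z := by rw [mul_assoc h⁻¹, mul_inv_cancel_left, mul_inv_cancel_right]
    rwa [e] at this) (by rw [hS]; exact hUM)
  rw [hgS, cj_cj, hS] at hxe
  have h1 : n * x⁻¹ * n⁻¹ ∈ H := hMle (MM_conj (fun W hW => norm_stab hn (hstab W hW)) (Subgroup.inv_mem _ hx))
  have h2 : n * (x * h) * n⁻¹ * (x * h)⁻¹ ∈ H := hU (norm_comm hn hxe)
  have h3 : x * h ∈ H := H.mul_mem (hMle hx) hy
  have e : y = (n * x⁻¹ * n⁻¹) * ((n * (x * h) * n⁻¹ * (x * h)⁻¹) * (x * h)) := by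
    rw [inv_mul_cancel_right, hyn]
    simp only [mul_assoc, inv_mul_cancel_left]
  rw [e]
  exact H.mul_mem h1 (H.mul_mem h2 h3)

end CfsgLib.Pm
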