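import Cfsg.Agent.LibPm1
import Cfsg.Agent.LibPm2

set_option autoImplicit false

/-! Sylow 2-subgroups of `GL_{2k}`: block structure (seat helper26). -/

namespace CfsgLib.Pm

open Matrix CfsgLib.FgSub

variable {ι F : Type*} [Fintype ι] [DecidableEq ι] [Field F]

/-- block diagonal elements -/
def bd (a b : GL ι F) : GL (ι ⊕ ι) F where
  val := fromBlocks (a : Matrix ι ι F) 0 0 (b : Matrix ι ι F)
  inv := fromBlocks ((a⁻¹ : GL ι F) : Matrix ι ι F) 0 0 ((b⁻¹ : GL ι F) : Matrix ι ι F)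
  val_inv := by
    rw [fromBlocks_multiply]
    simp only [mul_zero, add_zero, zero_mul, zero_add]
    rw [← Units.val_mul, ← Units.val_mul, mul_inv_cancel, mul_inv_cancel, Units.val_one, fromBlocks_one]
  inv_val := by
    rw [fromBlocks_multiply]
    simp only [mul_zero, add_zero, zero_mul, zero_add]
    rw [← Units.val_mul, ← Units.val_mul, inv_mul_cancel, inv_mul_cancel, Units.val_one, fromBlocks_one]

theorem bd_val (a b : GL ι F) : ((bd a b : GL (ι ⊕ ι) F) : Matrix (ι ⊕ ι) (ι ⊕ ι) F) = fromBlocks (a : Matrix ι ι F) 0 0 (b : Matrix ι ι F) := rfl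

theorem bd_mul (a b c d : GL ι F) : bd a b * bd c d = bd (a * c) (b * d) := by
  apply Units.ext
  rw [Units.val_mul, bd_val, bd_val, bd_val, fromBlocks_multiply]
  simp

theorem bd_one : bd (1 : GL ι F) 1 = 1 := by
  apply Units.ext
  rw [bd_val, Units.val_one, Units.val_one, fromBlocks_one]

theorem bd_inv (a b : GL ι F) : (bd a b)⁻¹ = bd a⁻¹ b⁻¹ := by
  apply inv_eq_of_mul_eq_one_right
  rw [bd_mul, mul_inv_cancel, mul_inv_cancel, bd_one]

theorem bd_inj {a b c d : GL ι F} (h : bd a b = bd c d) : a = c ∧ b = d := by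
  have h1 := congrArg (fun g : GL (ι ⊕ ι) F => (g : Matrix (ι ⊕ ι) (ι ⊕ ι) F)) h
  simp only [bd_val] at h1
  rw [fromBlocks_inj] at h1
  exact ⟨Units.ext h1.1, Units.ext h1.2.2.2⟩

/-- the swap, of determinant one -/
def sw (ι F : Type*) [Fintype ι] [DecidableEq ι] [Field F] : GL (ι ⊕ ι) F where
  val := fromBlocks 0 1 (-1) 0
  inv := fromBlocks 0 (-1) 1 0
  val_inv := by rw [fromBlocks_multiply]; simp
  inv_val := by rw [fromBlocks_multiply]; simp

theorem sw_val : ((sw ι F : GL (ι ⊕ ι) F) : Matrix (ι ⊕ ι) (ι ⊕ ι) F) = fromBlocks 0 1 (-1) 0 := rfl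

theorem sw_det : ((sw ι F : GL (ι ⊕ ι) F) : Matrix (ι ⊕ ι) (ι ⊕ ι) F).det = 1 := by
  have h : (fromBlocks 0 1 (-1) 0 : Matrix (ι ⊕ ι) (ι ⊕ ι) F) = fromBlocks 1 1 0 1 * fromBlocks 1 0 (-1) 1 * fromBlocks 1 1 0 1 := by
    rw [fromBlocks_multiply, fromBlocks_multiply]; simp
  rw [sw_val, h, det_mul, det_mul, det_fromBlocks_zero₂₁, det_fromBlocks_zero₁₂]
  simp

theorem bd_det (a b : GL ι F) : ((bd a b : GL (ι ⊕ ι) F) : Matrix (ι ⊕ ι) (ι ⊕ ι) F).det = (a : Matrix ι ι F).det * (b : Matrix ι ι F).det := by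
  rw [bd_val, det_fromBlocks_zero₂₁]

theorem sw_bd (a b : GL ι F) : sw ι F * bd a b = bd b a * sw ι F := by
  apply Units.ext
  rw [Units.val_mul, Units.val_mul, bd_val, bd_val, sw_val, fromBlocks_multiply, fromBlocks_multiply]
  simp

theorem sw_sw : sw ι F * sw ι F = bd (-1 : GL ι F) (-1 : GL ι F) := by
  apply Units.ext
  rw [Units.val_mul, bd_val, sw_val, fromBlocks_multiply]
  simp

theorem bd_ne_sw (a b c d : GL ι F) [Nonempty ι] : bd a b ≠ bd c d * sw ι F := by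
  intro h
  have h1 := congrArg (fun g : GL (ι ⊕ ι) F => (g : Matrix (ι ⊕ ι) (ι ⊕ ι) F)) h
  simp only [bd_val, Units.val_mul, sw_val, fromBlocks_multiply] at h1
  rw [fromBlocks_inj] at h1
  have h2 : (a : Matrix ι ι F) = 0 := by rw [h1.1]; simp
  have h3 := a.isUnit
  rw [h2] at h3
  exact not_isUnit_zero h3

/-- the wreath product -/
def wr (X : Subgroup (GL ι F)) (hX : (-1 : GL ι F) ∈ X) : Subgroup (GL (ι ⊕ ι) F) where
  carrier := {g | ∃ a ∈ X, ∃ b ∈ X, g = bd a b ∨ g = bd a b * sw ι F}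
  one_mem' := ⟨1, X.one_mem, 1, X.one_mem, Or.inl bd_one.symm⟩
  mul_mem' := by
    rintro g h ⟨a, ha, b, hb, rfl | rfl⟩ ⟨c, hc, d, hd, rfl | rfl⟩
    · exact ⟨a * c, X.mul_mem ha hc, b * d, X.mul_mem hb hd, Or.inl (bd_mul _ _ _ _)⟩
    · exact ⟨a * c, X.mul_mem ha hc, b * d, X.mul_mem hb hd, Or.inr (by rw [← mul_assoc, bd_mul])⟩
    · exact ⟨a * d, X.mul_mem ha hd, b * c, X.mul_mem hb hc, Or.inr (by rw [mul_assoc, sw_bd, ← mul_assoc, bd_mul])⟩
    · refine ⟨a * d * (-1), X.mul_mem (X.mul_mem ha hd) hX, b * c * (-1), X.mul_mem (X.mul_mem hb hc) hX, Or.inl ?_⟩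
      rw [mul_assoc (bd a b), ← mul_assoc (sw ι F), sw_bd, mul_assoc (bd d c), sw_sw, bd_mul, bd_mul]
      simp only [mul_assoc]
  inv_mem' := by
    rintro g ⟨a, ha, b, hb, rfl | rfl⟩
    · exact ⟨a⁻¹, X.inv_mem ha, b⁻¹, X.inv_mem hb, Or.inl (bd_inv _ _)⟩
    · refine ⟨-1 * b⁻¹, X.mul_mem hX (X.inv_mem hb), -1 * a⁻¹, X.mul_mem hX (X.inv_mem ha), Or.inr ?_⟩
      apply inv_eq_of_mul_eq_one_right
      rw [mul_assoc (bd a b), ← mul_assoc (sw ι F), sw_bd, mul_assoc (bd _ _), sw_sw, bd_mul, bd_mul]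
      rw [← bd_one]
      congr 1 <;> simp

theorem mem_wr {X : Subgroup (GL ι F)} {hX : (-1 : GL ι F) ∈ X} {g : GL (ι ⊕ ι) F} :
    g ∈ wr X hX ↔ ∃ a ∈ X, ∃ b ∈ X, g = bd a b ∨ g = bd a b * sw ι F := Iff.rfl

theorem card_wr [Nonempty ι] (X : Subgroup (GL ι F)) (hX : (-1 : GL ι F) ∈ X) : Nat.card (wr X hX) = 2 * Nat.card X ^ 2 := by
  have e : (X × X) × Bool ≃ wr X hX := by
    refine Equiv.ofBijective (fun p => ⟨bd (p.1.1 : GL ι F) (p.1.2 : GL ι F) * (if p.2 then sw ι F else 1), ?_⟩) ⟨?_, ?_⟩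
    · refine ⟨p.1.1, p.1.1.2, p.1.2, p.1.2.2, ?_⟩
      rcases p.2 with _ | _
      · left; simp
      · right; simp
    · rintro ⟨⟨a, b⟩, i⟩ ⟨⟨c, d⟩, j⟩ h
      have h1 := congrArg Subtype.val h
      simp only at h1
      rcases i with _ | _ <;> rcases j with _ | _
      · simp only [Bool.false_eq_true, if_false, mul_one] at h1
        obtain ⟨h2, h3⟩ := bd_inj h1
        rw [Subtype.ext h2, Subtype.ext h3]
      · simp only [Bool.false_eq_true, if_false, mul_one, if_true] at h1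
        exact absurd h1 (bd_ne_sw _ _ _ _)
      · simp only [Bool.false_eq_true, if_false, mul_one, if_true] at h1
        exact absurd h1.symm (bd_ne_sw _ _ _ _)
      · simp only [if_true] at h1
        obtain ⟨h2, h3⟩ := bd_inj (mul_right_cancel h1)
        rw [Subtype.ext h2, Subtype.ext h3]
    · rintro ⟨g, a, ha, b, hb, rfl | rfl⟩
      · exact ⟨((⟨a, ha⟩, ⟨b, hb⟩), false), Subtype.ext (by simp)⟩
      · exact ⟨((⟨a, ha⟩, ⟨b, hb⟩), true), Subtype.ext (by simp)⟩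
  rw [← Nat.card_congr e, Nat.card_prod, Nat.card_prod, Nat.card_eq_fintype_card (α := Bool), Fintype.card_bool]
  ring

/-- the property carried along the induction -/
structure PS (X : Subgroup (GL ι F)) : Prop where
  two : IsPGroup 2 X
  odd : ¬ 2 ∣ X.index
  nrm : ∀ g : GL ι F, cj g X = X → ∃ x ∈ X, ∃ c : F, (g : Matrix ι ι F) = c • (x : Matrix ι ι F)
  irr : ∀ L : Matrix ι ι F, (∀ x ∈ X, (x : Matrix ι ι F).det = 1 → L * (x : Matrix ι ι F) = (x : Matrix ι ι F) * L) → ∃ c : F, L = c • 1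

variable [Fintype F]

/-- a Sylow subgroup from `PS`-like data -/
noncomputable def toSyl (X : Subgroup (GL ι F)) (h1 : IsPGroup 2 X) (h2 : ¬ 2 ∣ X.index) : Sylow 2 (GL ι F) :=
  haveI : Finite (GL ι F) := inferInstance
  h1.toSylow h2

theorem central_mem {X : Subgroup (GL ι F)} (h1 : IsPGroup 2 X) (h2 : ¬ 2 ∣ X.index) {z : GL ι F} (hz : ∀ g, z * g = g * z) {k : ℕ}
    (hk : z ^ 2 ^ k = 1) : z ∈ X := by
  haveI : Fact (Nat.Prime 2) := ⟨Nat.prime_two⟩
  have h3 : cj z (toSyl X h1 h2 : Subgroup (GL ι F)) = toSyl X h1 h2 := by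
    ext y
    rw [mem_cj]
    have : z⁻¹ * y * z = y := by
      rw [mul_assoc, ← hz, ← mul_assoc, inv_mul_cancel, one_mul]
    rw [this]
  exact mem_of_norm (toSyl X h1 h2) h3 hk

theorem neg_one_mem {X : Subgroup (GL ι F)} (h1 : IsPGroup 2 X) (h2 : ¬ 2 ∣ X.index) : (-1 : GL ι F) ∈ X := by
  apply central_mem h1 h2 (k := 1)
  · intro g; simp
  · simp

theorem card_GL_index (F : Type*) [Field F] [Fintype F] (ι : Type*) [Fintype ι] [DecidableEq ι] :
    Nat.card (GL ι F) = cg (Fintype.card F) (Fintype.card ι) := by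
  have e : ι ≃ Fin (Fintype.card ι) := Fintype.equivFin ι
  have e2 : GL ι F ≃* GL (Fin (Fintype.card ι)) F := Units.mapEquiv (Matrix.reindexAlgEquiv F F e).toMulEquiv
  rw [Nat.card_congr e2.toEquiv, Matrix.card_GL_field]
  rfl

theorem two_wr {X : Subgroup (GL ι F)} [Nonempty ι] (h1 : IsPGroup 2 X) (hX : (-1 : GL ι F) ∈ X) : IsPGroup 2 (wr X hX) := by
  haveI : Fact (Nat.Prime 2) := ⟨Nat.prime_two⟩
  obtain ⟨k, hk⟩ := IsPGroup.iff_card.1 h1
  apply IsPGroup.of_card (n := 1 + 2 * k)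
  rw [card_wr, hk]
  ring

theorem odd_wr {X : Subgroup (GL ι F)} [Nonempty ι] (hq : Odd (Fintype.card F)) {j : ℕ} (hj : 1 ≤ j) (hι : Fintype.card ι = 2 ^ j)
    (h1 : IsPGroup 2 X) (h2 : ¬ 2 ∣ X.index) (hX : (-1 : GL ι F) ∈ X) : ¬ 2 ∣ (wr X hX).index := by
  haveI : Fact (Nat.Prime 2) := ⟨Nat.prime_two⟩
  have hq1 : 1 < Fintype.card F := Fintype.one_lt_card
  have e1 := Subgroup.card_mul_index (wr X hX)
  have e2 := Subgroup.card_mul_index X
  rw [card_GL_index, card_wr, Fintype.card_sum, hι] at e1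
  rw [card_GL_index, hι] at e2
  have v1 := val_double hq hq1 hj
  have hXi : X.index ≠ 0 := fun h => h2 (by rw [h]; exact dvd_zero 2)
  have hXc : Nat.card X ≠ 0 := Nat.card_pos.ne'
  have hwi : (wr X hX).index ≠ 0 := by
    intro h
    rw [h, mul_zero] at e1
    exact cg_ne hq1 e1.symm
  have v2 : padicValNat 2 (cg (Fintype.card F) (2 ^ j)) = padicValNat 2 (Nat.card X) := by
    rw [← e2, padicValNat.mul hXc hXi, padicValNat.eq_zero_of_not_dvd h2, add_zero]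
  rw [← e1, padicValNat.mul (by positivity) hwi, padicValNat.mul (by norm_num) (by positivity), padicValNat.self (by norm_num),
    padicValNat.pow, v2] at v1
  have v3 : padicValNat 2 (wr X hX).index = 0 := by omega
  intro h
  exact ((dvd_iff_padicValNat_ne_zero hwi).1 h) v3

end CfsgLib.Pm
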