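import Cfsg.Agent.LibPm3

set_option autoImplicit false

/-! Normalizers of Sylow 2-subgroups of `GL_{2k}`, `SL_{2k}`: the induction step (seat helper26). -/

namespace CfsgLib.Pm

open Matrix CfsgLib.FgSub

variable {ι F : Type*} [Fintype ι] [DecidableEq ι] [Field F]

/-- elements of determinant one -/
def DD (ι F : Type*) [Fintype ι] [DecidableEq ι] [Field F] : Subgroup (GL ι F) := (Matrix.GeneralLinearGroup.det : GL ι F →* Fˣ).ker

instance : (DD ι F).Normal := by unfold DD; infer_instance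

theorem mem_DD {g : GL ι F} : g ∈ DD ι F ↔ (g : Matrix ι ι F).det = 1 := by
  unfold DD
  rw [MonoidHom.mem_ker]
  constructor
  · intro h
    have := congrArg (fun u : Fˣ => (u : F)) h
    exact this
  · intro h
    exact Units.ext h

theorem neg_one_val : ((-1 : GL ι F) : Matrix ι ι F) = -1 := by simp

theorem bd_mem_iff {X : Subgroup (GL ι F)} [Nonempty ι] {hX : (-1 : GL ι F) ∈ X} {a b : GL ι F} : bd a b ∈ wr X hX ↔ a ∈ X ∧ b ∈ X := by
  constructor
  · rintro ⟨c, hc, d, hd, h | h⟩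
    · obtain ⟨rfl, rfl⟩ := bd_inj h
      exact ⟨hc, hd⟩
    · exact absurd h (bd_ne_sw _ _ _ _)
  · rintro ⟨ha, hb⟩
    exact ⟨a, ha, b, hb, Or.inl rfl⟩

theorem bds_mem_iff {X : Subgroup (GL ι F)} [Nonempty ι] {hX : (-1 : GL ι F) ∈ X} {a b : GL ι F} : bd a b * sw ι F ∈ wr X hX ↔ a ∈ X ∧ b ∈ X := by
  constructor
  · rintro ⟨c, hc, d, hd, h | h⟩
    · exact absurd h.symm (bd_ne_sw _ _ _ _)
    · obtain ⟨rfl, rfl⟩ := bd_inj (mul_right_cancel h)
      exact ⟨hc, hd⟩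
  · rintro ⟨ha, hb⟩
    exact ⟨a, ha, b, hb, Or.inr rfl⟩

theorem sw_mem {X : Subgroup (GL ι F)} {hX : (-1 : GL ι F) ∈ X} : sw ι F ∈ wr X hX :=
  ⟨1, X.one_mem, 1, X.one_mem, Or.inr (by rw [bd_one, one_mul])⟩

theorem eq_zero_of_neg {A : Matrix ι ι F} (h2 : (2 : F) ≠ 0) (h : -A = A) : A = 0 := by
  ext i j
  have := congrFun (congrFun h i) j
  rw [neg_apply] at this
  have h3 : (2 : F) * A i j = 0 := by linear_combination -this
  exact (mul_eq_zero.1 h3).resolve_left h2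

theorem block_diag_norm {X : Subgroup (GL ι F)} [Nonempty ι] (hX : (-1 : GL ι F) ∈ X)
    (hn : ∀ g : GL ι F, cj g X = X → ∃ x ∈ X, ∃ c : F, (g : Matrix ι ι F) = c • (x : Matrix ι ι F))
    (g1 g2 : GL ι F) (h1 : ∀ y ∈ wr X hX, (y : Matrix (ι ⊕ ι) (ι ⊕ ι) F).det = 1 → bd g1 g2 * y * (bd g1 g2)⁻¹ ∈ wr X hX)
    (h2 : ∀ y ∈ wr X hX, (y : Matrix (ι ⊕ ι) (ι ⊕ ι) F).det = 1 → (bd g1 g2)⁻¹ * y * bd g1 g2 ∈ wr X hX) :
    ∃ x ∈ wr X hX, ∃ c : F, ((bd g1 g2 : GL (ι ⊕ ι) F) : Matrix (ι ⊕ ι) (ι ⊕ ι) F) = c • (x : Matrix (ι ⊕ ι) (ι ⊕ ι) F) := by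
  have hdet : ∀ a : GL ι F, ((bd a⁻¹ a : GL (ι ⊕ ι) F) : Matrix (ι ⊕ ι) (ι ⊕ ι) F).det = 1 := by
    intro a
    rw [bd_det, ← det_mul, ← Units.val_mul, inv_mul_cancel, Units.val_one, det_one]
  have hn2 : cj g2 X = X := by
    ext y
    rw [mem_cj]
    constructor
    · intro hy
      have h3 := h1 (bd (g2⁻¹ * y * g2)⁻¹ (g2⁻¹ * y * g2)) (bd_mem_iff.2 ⟨X.inv_mem hy, hy⟩) (hdet _)
      rw [bd_inv, bd_mul, bd_mul, bd_mem_iff] at h3
      have h4 := h3.2
      have e : g2 * (g2⁻¹ * y * g2) * g2⁻¹ = y := by group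
      rwa [e] at h4
    · intro hy
      have h3 := h2 (bd y⁻¹ y) (bd_mem_iff.2 ⟨X.inv_mem hy, hy⟩) (hdet _)
      rw [bd_inv, bd_mul, bd_mul, bd_mem_iff] at h3
      exact h3.2
  obtain ⟨x2, hx2, c, hc⟩ := hn g2 hn2
  have h3 := h1 (sw ι F) sw_mem sw_det
  rw [bd_inv, mul_assoc, sw_bd, ← mul_assoc, bd_mul, bds_mem_iff] at h3
  refine ⟨bd (g1 * g2⁻¹ * x2) x2, bd_mem_iff.2 ⟨X.mul_mem h3.1 hx2, hx2⟩, c, ?_⟩
  rw [bd_val, bd_val, fromBlocks_smul, Units.val_mul (g1 * g2⁻¹) x2, ← mul_smul_comm, ← hc, ← Units.val_mul]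
  simp

variable [Fintype F]

theorem step_norm {X : Subgroup (GL ι F)} (P : PS X) (h2 : (2 : F) ≠ 0) (hev : Even (Fintype.card ι)) {i0 j0 : ι} (hij : i0 ≠ j0)
    (hX : (-1 : GL ι F) ∈ X) (g : GL (ι ⊕ ι) F)
    (hg1 : ∀ y ∈ wr X hX, (y : Matrix (ι ⊕ ι) (ι ⊕ ι) F).det = 1 → g * y * g⁻¹ ∈ wr X hX)
    (hg2 : ∀ y ∈ wr X hX, (y : Matrix (ι ⊕ ι) (ι ⊕ ι) F).det = 1 → g⁻¹ * y * g ∈ wr X hX) :
    ∃ x ∈ wr X hX, ∃ c : F, (g : Matrix (ι ⊕ ι) (ι ⊕ ι) F) = c • (x : Matrix (ι ⊕ ι) (ι ⊕ ι) F) := by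
  haveI : Nonempty ι := ⟨i0⟩
  set t : GL (ι ⊕ ι) F := bd 1 (-1) with ht
  have htY : t ∈ wr X hX := bd_mem_iff.2 ⟨X.one_mem, hX⟩
  have hneg : ((-1 : GL ι F) : Matrix ι ι F).det = 1 := by
    rw [neg_one_val, det_neg, det_one, mul_one, hev.neg_one_pow]
  have htd : (t : Matrix (ι ⊕ ι) (ι ⊕ ι) F).det = 1 := by
    rw [ht, bd_det, hneg, Units.val_one, det_one, mul_one]
  have htt : t * t = 1 := by rw [ht, bd_mul, ← bd_one]; simp
  set z : GL (ι ⊕ ι) F := g * t * g⁻¹ with hz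
  have hzY : z ∈ wr X hX := hg1 t htY htd
  set Z : Matrix (ι ⊕ ι) (ι ⊕ ι) F := (z : Matrix (ι ⊕ ι) (ι ⊕ ι) F) with hZ
  have hZZ : Z * Z = 1 := by
    rw [hZ, ← Units.val_mul]
    have : z * z = 1 := by
      rw [hz]
      calc g * t * g⁻¹ * (g * t * g⁻¹) = g * (t * t) * g⁻¹ := by group
        _ = 1 := by rw [htt]; group
    rw [this, Units.val_one]
  have key : ∀ y ∈ wr X hX, (y : Matrix (ι ⊕ ι) (ι ⊕ ι) F).det = 1 →
      (y : Matrix (ι ⊕ ι) (ι ⊕ ι) F) * Z = Z * y ∨ (y : Matrix (ι ⊕ ι) (ι ⊕ ι) F) * Z = -(Z * y) := by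
    intro y hy hyd
    have hy' := hg2 y hy hyd
    have h3 : (g⁻¹ * y * g) * t = t * (g⁻¹ * y * g) ∨ (g⁻¹ * y * g) * t = -(t * (g⁻¹ * y * g)) := by
      obtain ⟨a, ha, b, hb, h | h⟩ := hy'
      · left
        rw [h, ht, bd_mul, bd_mul]; simp
      · right
        rw [h, ht, mul_assoc (bd a b), sw_bd, ← mul_assoc, ← mul_assoc, bd_mul, bd_mul]
        apply Units.ext
        rw [Units.val_neg, Units.val_mul, Units.val_mul, bd_val, bd_val, ← neg_mul, fromBlocks_neg]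
        simp
    rcases h3 with h3 | h3
    · left
      rw [hZ, ← Units.val_mul, ← Units.val_mul]
      congr 1
      rw [hz]
      calc y * (g * t * g⁻¹) = g * ((g⁻¹ * y * g) * t) * g⁻¹ := by group
        _ = g * (t * (g⁻¹ * y * g)) * g⁻¹ := by rw [h3]
        _ = g * t * g⁻¹ * y := by group
    · right
      rw [hZ, ← Units.val_mul, ← Units.val_mul, ← Units.val_neg]
      congr 1
      rw [hz]
      calc y * (g * t * g⁻¹) = g * ((g⁻¹ * y * g) * t) * g⁻¹ := by group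
        _ = g * (-(t * (g⁻¹ * y * g))) * g⁻¹ := by rw [h3]
        _ = -(g * (t * (g⁻¹ * y * g)) * g⁻¹) := by rw [mul_neg, neg_mul]
        _ = -(g * t * g⁻¹ * y) := by congr 1; group
  -- blocks of Z
  obtain ⟨Z11, Z12, Z21, Z22, hZb⟩ : ∃ A B C D : Matrix ι ι F, Z = fromBlocks A B C D :=
    ⟨_, _, _, _, (fromBlocks_toBlocks Z).symm⟩
  have hZZ' := hZZ
  rw [hZb, fromBlocks_multiply, ← fromBlocks_one, fromBlocks_inj] at hZZ'
  have hZne : Z ≠ 1 ∧ Z ≠ -1 := by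
    constructor
    · intro h
      have h3 : z = 1 := Units.ext h
      have h4 : t = 1 := by
        have : t = g⁻¹ * z * g := by rw [hz]; group
        rw [this, h3]; group
      rw [ht, ← bd_one] at h4
      have h5 := congrArg (fun u : GL ι F => (u : Matrix ι ι F) i0 i0) (bd_inj h4).2
      simp at h5
      apply h2
      have : (2 : F) = 1 + 1 := by norm_num
      rw [this]
      nth_rewrite 1 [← h5]
      simp
    · intro h
      have h3 : z = -1 := Units.ext (by rw [← hZ, h]; simp)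
      have h4 : t = -1 := by
        have : t = g⁻¹ * z * g := by rw [hz]; group
        rw [this, h3]; simp
      have h5 := congrArg (fun u : GL (ι ⊕ ι) F => (u : Matrix (ι ⊕ ι) (ι ⊕ ι) F) (Sum.inl i0) (Sum.inl i0)) h4
      rw [ht] at h5
      simp [bd_val] at h5
      apply h2
      have : (2 : F) = 1 + 1 := by norm_num
      rw [this]
      nth_rewrite 1 [h5]
      simp
  have hs0 : (bd (-1) 1 : GL (ι ⊕ ι) F) ∈ wr X hX := bd_mem_iff.2 ⟨hX, X.one_mem⟩
  have hs0d : ((bd (-1) 1 : GL (ι ⊕ ι) F) : Matrix (ι ⊕ ι) (ι ⊕ ι) F).det = 1 := by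
    rw [bd_det, hneg, Units.val_one, det_one, mul_one]
  have hZt : Z = (t : Matrix (ι ⊕ ι) (ι ⊕ ι) F) ∨ Z = -(t : Matrix (ι ⊕ ι) (ι ⊕ ι) F) := by
    rcases key _ hs0 hs0d with h | h
    · -- diagonal
      rw [hZb, bd_val, neg_one_val, Units.val_one, fromBlocks_multiply, fromBlocks_multiply, fromBlocks_inj] at h
      simp only [neg_mul, one_mul, zero_mul, add_zero, mul_zero, zero_add, mul_neg, mul_one] at h
      have hz12 : Z12 = 0 := eq_zero_of_neg h2 h.2.1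
      have hz21 : Z21 = 0 := eq_zero_of_neg h2 h.2.2.1.symm
      rw [hz12, hz21] at hZb hZZ'
      simp only [mul_zero, add_zero, zero_add] at hZZ'
      have hne1 : Z11 ≠ 0 := by
        intro h0
        have := hZZ'.1
        rw [h0, mul_zero] at this
        have := congrFun (congrFun this i0) i0
        simp at this
      have hne2 : Z22 ≠ 0 := by
        intro h0
        have := hZZ'.2.2.2
        rw [h0, mul_zero] at this
        have := congrFun (congrFun this i0) i0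
        simp at this
      obtain ⟨c1, hc1⟩ := P.irr Z11 (by
        intro x hx hxd
        have h3 := key (bd x 1) (bd_mem_iff.2 ⟨hx, X.one_mem⟩) (by rw [bd_det, hxd, Units.val_one, det_one, mul_one])
        rw [hZb, bd_val, Units.val_one, fromBlocks_multiply, fromBlocks_multiply, fromBlocks_neg, fromBlocks_inj, fromBlocks_inj] at h3
        simp only [mul_zero, zero_mul, add_zero, zero_add, one_mul, mul_one] at h3
        rcases h3 with h3 | h3
        · exact h3.1.symm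
        · exact absurd (eq_zero_of_neg h2 h3.2.2.2.symm) hne2)
      obtain ⟨c2, hc2⟩ := P.irr Z22 (by
        intro x hx hxd
        have h3 := key (bd 1 x) (bd_mem_iff.2 ⟨X.one_mem, hx⟩) (by rw [bd_det, hxd, Units.val_one, det_one, mul_one])
        rw [hZb, bd_val, Units.val_one, fromBlocks_multiply, fromBlocks_multiply, fromBlocks_neg, fromBlocks_inj, fromBlocks_inj] at h3
        simp only [mul_zero, zero_mul, add_zero, zero_add, one_mul, mul_one] at h3
        rcases h3 with h3 | h3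
        · exact h3.2.2.2.symm
        · exact absurd (eq_zero_of_neg h2 h3.1.symm) hne1)
      have hcc : ∀ (c : F) (A : Matrix ι ι F), A = c • 1 → A * A = 1 → c = 1 ∨ c = -1 := by
        intro c A hA hAA
        rw [hA] at hAA
        have := congrFun (congrFun hAA i0) i0
        simp at this
        exact mul_self_eq_one_iff.1 this
      have e1 := hcc c1 Z11 hc1 hZZ'.1
      have e2 := hcc c2 Z22 hc2 hZZ'.2.2.2
      rw [hZb, hc1, hc2, ht, bd_val, neg_one_val, Units.val_one, fromBlocks_neg]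
      rw [hZb, hc1, hc2] at hZne
      rcases e1 with rfl | rfl <;> rcases e2 with rfl | rfl
      · exact absurd (by rw [one_smul, fromBlocks_one]) hZne.1
      · left; simp
      · right; simp
      · exact absurd (by rw [← fromBlocks_one, fromBlocks_neg]; simp) hZne.2
    · -- antidiagonal: contradiction
      exfalso
      rw [hZb, bd_val, neg_one_val, Units.val_one, fromBlocks_multiply, fromBlocks_multiply, fromBlocks_neg, fromBlocks_inj] at h
      simp only [neg_mul, one_mul, zero_mul, add_zero, mul_zero, zero_add, mul_neg, mul_one, neg_neg] at h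
      have hz11 : Z11 = 0 := eq_zero_of_neg h2 h.1
      have hz22 : Z22 = 0 := eq_zero_of_neg h2 h.2.2.2.symm
      rw [hz11, hz22] at hZb hZZ'
      simp only [mul_zero, add_zero, zero_add] at hZZ'
      obtain ⟨c, hc⟩ := P.irr (Matrix.single i0 j0 1) (by
        intro x hx hxd
        have h3 := key (bd x 1) (bd_mem_iff.2 ⟨hx, X.one_mem⟩) (by rw [bd_det, hxd, Units.val_one, det_one, mul_one])
        rw [hZb, bd_val, Units.val_one, fromBlocks_multiply, fromBlocks_multiply, fromBlocks_neg, fromBlocks_inj, fromBlocks_inj] at h3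
        simp only [mul_zero, zero_mul, add_zero, zero_add, one_mul, mul_one] at h3
        have h4 : (x : Matrix ι ι F) = 1 ∨ (x : Matrix ι ι F) = -1 := by
          rcases h3 with h3 | h3
          · left
            have := congrArg (fun A => A * Z21) h3.2.1
            simp only [mul_assoc, hZZ'.1, mul_one] at this
            exact this
          · right
            have := congrArg (fun A => A * Z21) h3.2.1
            simp only [mul_assoc, neg_mul, hZZ'.1, mul_one] at this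
            exact this
        rcases h4 with h4 | h4 <;> rw [h4] <;> simp)
      have h3 := congrFun (congrFun hc i0) j0
      rw [Matrix.smul_apply, one_apply_ne hij, smul_zero, Matrix.single_apply_same] at h3
      exact one_ne_zero h3
  -- blocks of g
  have hgt : (g : Matrix (ι ⊕ ι) (ι ⊕ ι) F) * (t : Matrix (ι ⊕ ι) (ι ⊕ ι) F) = Z * g := by
    rw [hZ, ← Units.val_mul, ← Units.val_mul, hz]
    congr 1
    group
  obtain ⟨G11, G12, G21, G22, hGb⟩ : ∃ A B C D : Matrix ι ι F, (g : Matrix (ι ⊕ ι) (ι ⊕ ι) F) = fromBlocks A B C D :=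
    ⟨_, _, _, _, (fromBlocks_toBlocks _).symm⟩
  have hgdet : (g : Matrix (ι ⊕ ι) (ι ⊕ ι) F).det ≠ 0 := by
    have := (Matrix.isUnit_iff_isUnit_det _).1 g.isUnit
    exact this.ne_zero
  rcases hZt with h | h
  · rw [h, hGb, ht, bd_val, neg_one_val, Units.val_one, fromBlocks_multiply, fromBlocks_multiply, fromBlocks_inj] at hgt
    simp only [mul_zero, zero_mul, add_zero, zero_add, one_mul, mul_one, mul_neg, neg_mul] at hgt
    have h12 : G12 = 0 := eq_zero_of_neg h2 hgt.2.1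
    have h21 : G21 = 0 := eq_zero_of_neg h2 hgt.2.2.1.symm
    rw [h12, h21] at hGb
    rw [hGb, det_fromBlocks_zero₂₁] at hgdet
    have hd1 : G11.det ≠ 0 := fun h0 => hgdet (by rw [h0, zero_mul])
    have hd2 : G22.det ≠ 0 := fun h0 => hgdet (by rw [h0, mul_zero])
    have hgb : g = bd (GeneralLinearGroup.mkOfDetNeZero G11 hd1) (GeneralLinearGroup.mkOfDetNeZero G22 hd2) := by
      apply Units.ext
      rw [hGb]; rfl
    rw [hgb]
    rw [hgb] at hg1 hg2
    exact block_diag_norm hX P.nrm _ _ hg1 hg2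
  · rw [h, hGb, ht, bd_val, neg_one_val, Units.val_one, neg_mul, fromBlocks_multiply, fromBlocks_multiply, fromBlocks_neg, fromBlocks_inj] at hgt
    simp only [mul_zero, zero_mul, add_zero, zero_add, one_mul, mul_one, mul_neg, neg_mul, neg_neg] at hgt
    have h11 : G11 = 0 := eq_zero_of_neg h2 hgt.1.symm
    have h22 : G22 = 0 := eq_zero_of_neg h2 hgt.2.2.2
    rw [h11, h22] at hGb
    have hgs : ((g * sw ι F : GL (ι ⊕ ι) F) : Matrix (ι ⊕ ι) (ι ⊕ ι) F) = fromBlocks (-G12) 0 0 G21 := by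
      rw [Units.val_mul, hGb, sw_val, fromBlocks_multiply]
      simp
    have hgdet' : (fromBlocks (-G12) 0 0 G21 : Matrix (ι ⊕ ι) (ι ⊕ ι) F).det ≠ 0 := by
      rw [← hgs, Units.val_mul, det_mul, sw_det, mul_one]
      exact hgdet
    rw [det_fromBlocks_zero₂₁] at hgdet'
    have hd1 : (-G12).det ≠ 0 := fun h0 => hgdet' (by rw [h0, zero_mul])
    have hd2 : G21.det ≠ 0 := fun h0 => hgdet' (by rw [h0, mul_zero])
    have hgb : g * sw ι F = bd (GeneralLinearGroup.mkOfDetNeZero (-G12) hd1) (GeneralLinearGroup.mkOfDetNeZero G21 hd2) := by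
      apply Units.ext
      rw [hgs]; rfl
    have hswi : ((sw ι F)⁻¹ : GL (ι ⊕ ι) F) ∈ wr X hX := Subgroup.inv_mem _ sw_mem
    have hsid : (((sw ι F)⁻¹ : GL (ι ⊕ ι) F) : Matrix (ι ⊕ ι) (ι ⊕ ι) F).det = 1 := by
      rw [← mem_DD]
      exact Subgroup.inv_mem _ (mem_DD.2 sw_det)
    obtain ⟨x, hx, c, hc⟩ := block_diag_norm hX P.nrm _ _ (by
      intro y hy hyd
      rw [← hgb]
      have h3 := hg1 (sw ι F * y * (sw ι F)⁻¹) (Subgroup.mul_mem _ (Subgroup.mul_mem _ sw_mem hy) hswi) (by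
        rw [Units.val_mul, Units.val_mul, det_mul, det_mul, sw_det, hyd, hsid]; simp)
      have e : g * sw ι F * y * (g * sw ι F)⁻¹ = g * (sw ι F * y * (sw ι F)⁻¹) * g⁻¹ := by group
      rw [e]; exact h3) (by
      intro y hy hyd
      rw [← hgb]
      have h3 := hg2 y hy hyd
      have e : (g * sw ι F)⁻¹ * y * (g * sw ι F) = (sw ι F)⁻¹ * (g⁻¹ * y * g) * sw ι F := by group
      rw [e]
      exact Subgroup.mul_mem _ (Subgroup.mul_mem _ hswi h3) sw_mem)
    rw [← hgb] at hc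
    refine ⟨x * (sw ι F)⁻¹, Subgroup.mul_mem _ hx hswi, c, ?_⟩
    have e : g = g * sw ι F * (sw ι F)⁻¹ := by group
    rw [e, Units.val_mul, hc, Units.val_mul x, smul_mul_assoc]

theorem step_irr {X : Subgroup (GL ι F)} (P : PS X) (h2 : (2 : F) ≠ 0) (hev : Even (Fintype.card ι)) [Nonempty ι]
    (hX : (-1 : GL ι F) ∈ X) (L : Matrix (ι ⊕ ι) (ι ⊕ ι) F)
    (hL : ∀ x ∈ wr X hX, (x : Matrix (ι ⊕ ι) (ι ⊕ ι) F).det = 1 → L * (x : Matrix (ι ⊕ ι) (ι ⊕ ι) F) = (x : Matrix (ι ⊕ ι) (ι ⊕ ι) F) * L) :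
    ∃ c : F, L = c • 1 := by
  have hneg : ((-1 : GL ι F) : Matrix ι ι F).det = 1 := by
    rw [neg_one_val, det_neg, det_one, mul_one, hev.neg_one_pow]
  obtain ⟨L11, L12, L21, L22, hLb⟩ : ∃ A B C D : Matrix ι ι F, L = fromBlocks A B C D :=
    ⟨_, _, _, _, (fromBlocks_toBlocks _).symm⟩
  have h0 := hL (bd (-1) 1) (bd_mem_iff.2 ⟨hX, X.one_mem⟩) (by rw [bd_det, hneg, Units.val_one, det_one, mul_one])
  rw [hLb, bd_val, neg_one_val, Units.val_one, fromBlocks_multiply, fromBlocks_multiply, fromBlocks_inj] at h0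
  simp only [mul_zero, zero_mul, add_zero, zero_add, one_mul, mul_one, mul_neg, neg_mul] at h0
  have h12 : L12 = 0 := eq_zero_of_neg h2 h0.2.1.symm
  have h21 : L21 = 0 := eq_zero_of_neg h2 h0.2.2.1
  rw [h12, h21] at hLb
  obtain ⟨c1, hc1⟩ := P.irr L11 (by
    intro x hx hxd
    have h3 := hL (bd x 1) (bd_mem_iff.2 ⟨hx, X.one_mem⟩) (by rw [bd_det, hxd, Units.val_one, det_one, mul_one])
    rw [hLb, bd_val, Units.val_one, fromBlocks_multiply, fromBlocks_multiply, fromBlocks_inj] at h3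
    simp only [mul_zero, zero_mul, add_zero, zero_add, one_mul, mul_one] at h3
    exact h3.1)
  have h3 := hL (sw ι F) sw_mem sw_det
  rw [hLb, sw_val, fromBlocks_multiply, fromBlocks_multiply, fromBlocks_inj] at h3
  simp only [mul_zero, zero_mul, add_zero, zero_add, one_mul, mul_one] at h3
  refine ⟨c1, ?_⟩
  rw [hLb, ← h3.2.1, hc1, ← fromBlocks_one, fromBlocks_smul, smul_zero]

theorem PS_step {X : Subgroup (GL ι F)} (P : PS X) (hq : Odd (Fintype.card F)) (h2 : (2 : F) ≠ 0) {j : ℕ} (hj : 1 ≤ j)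
    (hι : Fintype.card ι = 2 ^ j) : ∃ Y : Subgroup (GL (ι ⊕ ι) F), PS Y ∧
      ∀ g : GL (ι ⊕ ι) F, cj g (Y ⊓ DD (ι ⊕ ι) F) = Y ⊓ DD (ι ⊕ ι) F → ∃ x ∈ Y, ∃ c : F, (g : Matrix (ι ⊕ ι) (ι ⊕ ι) F) = c • (x : Matrix (ι ⊕ ι) (ι ⊕ ι) F) := by
  have hX := neg_one_mem P.two P.odd
  have h2j : 2 ≤ 2 ^ j := by
    calc 2 = 2 ^ 1 := rfl
      _ ≤ 2 ^ j := Nat.pow_le_pow_right (by norm_num) hj
  have hev : Even (Fintype.card ι) := by
    rw [hι]; exact Nat.even_pow.2 ⟨even_two, by omega⟩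
  haveI : Nontrivial ι := Fintype.one_lt_card_iff_nontrivial.1 (by omega)
  obtain ⟨i0, j0, hij⟩ := exists_pair_ne ι
  haveI : Nonempty ι := ⟨i0⟩
  have hN : ∀ g : GL (ι ⊕ ι) F, cj g (wr X hX ⊓ DD (ι ⊕ ι) F) = wr X hX ⊓ DD (ι ⊕ ι) F → ∃ x ∈ wr X hX, ∃ c : F, (g : Matrix (ι ⊕ ι) (ι ⊕ ι) F) = c • (x : Matrix (ι ⊕ ι) (ι ⊕ ι) F) := by
    intro g hg
    refine step_norm P h2 hev hij hX g ?_ ?_
    · intro y hy hyd
      have h3 : g * y * g⁻¹ ∈ cj g (wr X hX ⊓ DD (ι ⊕ ι) F) := conj_mem_cj ⟨hy, mem_DD.2 hyd⟩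
      rw [hg] at h3
      exact h3.1
    · intro y hy hyd
      have h3 : y ∈ cj g (wr X hX ⊓ DD (ι ⊕ ι) F) := by rw [hg]; exact ⟨hy, mem_DD.2 hyd⟩
      rw [mem_cj] at h3
      exact h3.1
  refine ⟨wr X hX, ⟨two_wr P.two hX, odd_wr hq hj hι P.two P.odd hX, ?_, step_irr P h2 hev hX⟩, hN⟩
  intro g hg
  apply hN
  rw [cj_inf, hg, cj_of_normal]

end CfsgLib.Pm
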