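import Cfsg.Agent.LibPm4

set_option autoImplicit false

/-! Sylow 2-subgroups of `GL_2(q)`, `q` odd (seat helper26). -/

namespace CfsgLib.Pm

open Matrix CfsgLib.FgSub

/-- the `2`-part of an element -/
theorem two_part {G : Type*} [Group G] [Finite G] (g : G) : ∃ m k : ℕ, Odd m ∧ (g ^ m) ^ 2 ^ k = 1 := by
  obtain ⟨a, b, hb, hab⟩ := Nat.exists_eq_two_pow_mul_odd (orderOf_pos g).ne'
  exact ⟨b, a, hb, by rw [← pow_mul, mul_comm, ← hab, pow_orderOf_eq_one]⟩

/-- splitting off the `2`-part modulo a subgroup -/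
theorem split_part {G : Type*} [Group G] [Finite G] (g : G) (Z : Subgroup G) {k : ℕ} (hk : g ^ 2 ^ k ∈ Z) :
    ∃ i : ℤ, ∃ j : ℕ, ∃ z ∈ Z, (g ^ i) ^ 2 ^ j = 1 ∧ g = g ^ i * z := by
  obtain ⟨b, a, hb, hab⟩ := two_part g
  have h2 : Nat.Coprime b (2 ^ k) := (hb.coprime_two_right).pow_right k
  have h3 : (1 : ℤ) = b * Nat.gcdA b (2 ^ k) + (2 ^ k : ℕ) * Nat.gcdB b (2 ^ k) := by
    have := Nat.gcd_eq_gcd_ab b (2 ^ k)
    rw [h2] at this
    exact_mod_cast this
  refine ⟨b * Nat.gcdA b (2 ^ k), a, (g ^ 2 ^ k) ^ (Nat.gcdB b (2 ^ k)), Z.zpow_mem hk _, ?_, ?_⟩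
  · rw [_root_.zpow_mul, zpow_natCast, ← zpow_natCast ((g ^ b) ^ _), zpow_comm, zpow_natCast, hab, _root_.one_zpow]
  · conv_lhs => rw [← zpow_one g, h3, _root_.zpow_add, _root_.zpow_mul, _root_.zpow_mul, zpow_natCast, zpow_natCast]
    rw [_root_.zpow_mul, zpow_natCast]

variable {F : Type*} [Field F]

theorem comm_um {δ : F} {A : Matrix (Fin 2) (Fin 2) F} (h : A * !![0, δ; 1, 0] = !![0, δ; 1, 0] * A) :
    A = !![A 0 0, δ * A 1 0; A 1 0, A 0 0] := by
  have h1 := congrFun (congrFun h 0) 0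
  have h2 := congrFun (congrFun h 1) 0
  simp [Matrix.mul_apply, Fin.sum_univ_two] at h1 h2
  ext i j
  fin_cases i <;> fin_cases j <;> simp [h1, h2]

theorem anti_um {δ : F} {A : Matrix (Fin 2) (Fin 2) F} (h : A * !![0, δ; 1, 0] = -(!![0, δ; 1, 0] * A)) :
    A = !![A 0 0, -(δ * A 1 0); A 1 0, -A 0 0] := by
  have h1 := congrFun (congrFun h 0) 0
  have h2 := congrFun (congrFun h 1) 0
  rw [Matrix.neg_apply, Matrix.mul_apply, Matrix.mul_apply, Fin.sum_univ_two, Fin.sum_univ_two] at h1 h2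
  simp at h1 h2
  ext i j
  fin_cases i <;> fin_cases j <;> simp [h1, h2]

/-- the element `u` -/
def uu (δ : F) (hδ : δ * δ = 1) : GL (Fin 2) F where
  val := !![0, δ; 1, 0]
  inv := !![0, 1; δ, 0]
  val_inv := by ext i j; fin_cases i <;> fin_cases j <;> simp [Matrix.mul_apply, Fin.sum_univ_two, hδ]
  inv_val := by ext i j; fin_cases i <;> fin_cases j <;> simp [Matrix.mul_apply, Fin.sum_univ_two, hδ]

/-- the element `n` -/
def nn (F : Type*) [Field F] : GL (Fin 2) F where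
  val := !![1, 0; 0, -1]
  inv := !![1, 0; 0, -1]
  val_inv := by ext i j; fin_cases i <;> fin_cases j <;> simp [Matrix.mul_apply, Fin.sum_univ_two]
  inv_val := by ext i j; fin_cases i <;> fin_cases j <;> simp [Matrix.mul_apply, Fin.sum_univ_two]

theorem uu_val (δ : F) (hδ : δ * δ = 1) : ((uu δ hδ : GL (Fin 2) F) : Matrix (Fin 2) (Fin 2) F) = !![0, δ; 1, 0] := rfl
theorem nn_val : ((nn F : GL (Fin 2) F) : Matrix (Fin 2) (Fin 2) F) = !![1, 0; 0, -1] := rfl

theorem nn_nn : nn F * nn F = 1 := by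
  apply Units.ext
  rw [Units.val_mul, nn_val]
  ext i j; fin_cases i <;> fin_cases j <;> simp [Matrix.mul_apply, Fin.sum_univ_two]

theorem nn_uu (δ : F) (hδ : δ * δ = 1) : nn F * uu δ hδ = -(uu δ hδ * nn F) := by
  apply Units.ext
  rw [Units.val_mul, Units.val_neg, Units.val_mul, nn_val, uu_val]
  ext i j; fin_cases i <;> fin_cases j <;> simp [Matrix.mul_apply, Fin.sum_univ_two]

/-- the centralizer of `u` -/
def EE (δ : F) (hδ : δ * δ = 1) : Subgroup (GL (Fin 2) F) where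
  carrier := {g | g * uu δ hδ = uu δ hδ * g}
  one_mem' := by simp
  mul_mem' := by
    intro a b ha hb
    simp only [Set.mem_ofPred_eq] at *
    rw [mul_assoc, hb, ← mul_assoc, ha, mul_assoc]
  inv_mem' := by
    intro a ha
    simp only [Set.mem_ofPred_eq] at *
    rw [inv_mul_eq_iff_eq_mul, ← mul_assoc, ha, mul_assoc, mul_inv_cancel, mul_one]

theorem mem_EE {δ : F} {hδ : δ * δ = 1} {g : GL (Fin 2) F} : g ∈ EE δ hδ ↔ g * uu δ hδ = uu δ hδ * g := Iff.rfl

/-- the normalizer of `⟨u⟩` -/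
def NN (δ : F) (hδ : δ * δ = 1) : Subgroup (GL (Fin 2) F) where
  carrier := {g | g * uu δ hδ = uu δ hδ * g ∨ g * uu δ hδ = -(uu δ hδ * g)}
  one_mem' := by simp
  mul_mem' := by
    intro a b ha hb
    simp only [Set.mem_ofPred_eq] at *
    rcases ha with ha | ha <;> rcases hb with hb | hb
    · left; rw [mul_assoc, hb, ← mul_assoc, ha, mul_assoc]
    · right; rw [mul_assoc, hb, mul_neg, ← mul_assoc, ha, mul_assoc]
    · right; rw [mul_assoc, hb, ← mul_assoc, ha, neg_mul, mul_assoc]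
    · left; rw [mul_assoc, hb, mul_neg, ← mul_assoc, ha, neg_mul, neg_neg, mul_assoc]
  inv_mem' := by
    intro a ha
    simp only [Set.mem_ofPred_eq] at *
    rcases ha with ha | ha
    · left
      rw [inv_mul_eq_iff_eq_mul, ← mul_assoc, ha, mul_assoc, mul_inv_cancel, mul_one]
    · right
      rw [inv_mul_eq_iff_eq_mul, mul_neg, ← mul_assoc, ha, neg_mul, neg_neg, mul_assoc, mul_inv_cancel, mul_one]

theorem mem_NN {δ : F} {hδ : δ * δ = 1} {g : GL (Fin 2) F} :
    g ∈ NN δ hδ ↔ (g * uu δ hδ = uu δ hδ * g ∨ g * uu δ hδ = -(uu δ hδ * g)) := Iff.rfl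

theorem EE_le_NN (δ : F) (hδ : δ * δ = 1) : EE δ hδ ≤ NN δ hδ := fun _ hg => Or.inl hg

theorem nn_mem_NN (δ : F) (hδ : δ * δ = 1) : nn F ∈ NN δ hδ := Or.inr (nn_uu δ hδ)

theorem EE_val {δ : F} {hδ : δ * δ = 1} {g : GL (Fin 2) F} (hg : g ∈ EE δ hδ) :
    (g : Matrix (Fin 2) (Fin 2) F) = !![(g : Matrix (Fin 2) (Fin 2) F) 0 0, δ * (g : Matrix (Fin 2) (Fin 2) F) 1 0;
      (g : Matrix (Fin 2) (Fin 2) F) 1 0, (g : Matrix (Fin 2) (Fin 2) F) 0 0] := by
  apply comm_um
  have := congrArg (fun g : GL (Fin 2) F => (g : Matrix (Fin 2) (Fin 2) F)) hg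
  simpa [uu_val] using this

theorem EE_comm {δ : F} {hδ : δ * δ = 1} {g h : GL (Fin 2) F} (hg : g ∈ EE δ hδ) (hh : h ∈ EE δ hδ) : g * h = h * g := by
  apply Units.ext
  rw [Units.val_mul, Units.val_mul, EE_val hg, EE_val hh]
  ext i j; fin_cases i <;> fin_cases j <;> simp [Matrix.mul_apply, Fin.sum_univ_two] <;> ring

theorem anti_mul_nn {δ : F} {hδ : δ * δ = 1} {g : GL (Fin 2) F} (hg : g * uu δ hδ = -(uu δ hδ * g)) : g * nn F ∈ EE δ hδ := by
  rw [mem_EE, mul_assoc, nn_uu, mul_neg, ← mul_assoc, hg, neg_mul, neg_neg, mul_assoc]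

/-- `EE` as pairs -/
noncomputable def EEequiv (δ : F) (hδ : δ * δ = 1) : EE δ hδ ≃ {p : F × F // p.1 * p.1 - δ * p.2 * p.2 ≠ 0} where
  toFun g := ⟨((g : GL (Fin 2) F) 0 0, (g : GL (Fin 2) F) 1 0), by
    have h1 := (Matrix.isUnit_iff_isUnit_det _).1 (g : GL (Fin 2) F).isUnit
    rw [EE_val g.2, det_fin_two_of] at h1
    have := h1.ne_zero
    intro h
    apply this
    linear_combination h⟩
  invFun p := ⟨GeneralLinearGroup.mkOfDetNeZero !![p.1.1, δ * p.1.2; p.1.2, p.1.1] (by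
      rw [det_fin_two_of]
      intro h
      apply p.2
      linear_combination h), by
      rw [mem_EE]
      apply Units.ext
      rw [Units.val_mul, Units.val_mul, uu_val]
      change !![p.1.1, δ * p.1.2; p.1.2, p.1.1] * _ = _ * !![p.1.1, δ * p.1.2; p.1.2, p.1.1]
      ext i j; fin_cases i <;> fin_cases j <;> simp [Matrix.mul_apply, Fin.sum_univ_two] <;> ring⟩
  left_inv g := by
    apply Subtype.ext
    apply Units.ext
    exact (EE_val g.2).symm
  right_inv p := by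
    apply Subtype.ext
    apply Prod.ext <;> rfl

theorem nn_not_mem (δ : F) (hδ : δ * δ = 1) (h2 : (2 : F) ≠ 0) {g : GL (Fin 2) F} (hg : g ∈ EE δ hδ) : g * nn F ∉ EE δ hδ := by
  intro h
  have h1 : nn F ∈ EE δ hδ := by
    have := (EE δ hδ).mul_mem ((EE δ hδ).inv_mem hg) h
    rwa [inv_mul_cancel_left] at this
  have h3 := EE_val h1
  rw [nn_val] at h3
  have h4 := congrFun (congrFun h3 1) 1
  simp at h4
  apply h2
  linear_combination -h4

theorem card_NN (δ : F) (hδ : δ * δ = 1) (h2 : (2 : F) ≠ 0) [Finite F] : Nat.card (NN δ hδ) = 2 * Nat.card (EE δ hδ) := by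
  have e : EE δ hδ × Bool ≃ NN δ hδ := by
    refine Equiv.ofBijective (fun p => ⟨(p.1 : GL (Fin 2) F) * (if p.2 then nn F else 1), ?_⟩) ⟨?_, ?_⟩
    · refine (NN δ hδ).mul_mem (EE_le_NN _ _ p.1.2) ?_
      split_ifs
      · exact nn_mem_NN _ _
      · exact (NN δ hδ).one_mem
    · rintro ⟨a, i⟩ ⟨b, j⟩ h
      have h1 := congrArg Subtype.val h
      simp only at h1
      rcases i with _ | _ <;> rcases j with _ | _
      · simp only [Bool.false_eq_true, if_false, mul_one] at h1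
        rw [Subtype.ext h1]
      · simp only [Bool.false_eq_true, if_false, mul_one, if_true] at h1
        exact absurd (h1 ▸ a.2) (nn_not_mem δ hδ h2 b.2)
      · simp only [Bool.false_eq_true, if_false, mul_one, if_true] at h1
        exact absurd (h1.symm ▸ b.2) (nn_not_mem δ hδ h2 a.2)
      · simp only [if_true] at h1
        rw [Subtype.ext (mul_right_cancel h1)]
    · rintro ⟨g, hg | hg⟩
      · exact ⟨(⟨g, hg⟩, false), Subtype.ext (by simp)⟩
      · refine ⟨(⟨g * nn F, anti_mul_nn hg⟩, true), Subtype.ext ?_⟩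
        simp only [if_true]
        rw [mul_assoc, nn_nn, mul_one]
  rw [← Nat.card_congr e, Nat.card_prod, Nat.card_eq_fintype_card (α := Bool), Fintype.card_bool]
  ring

end CfsgLib.Pm
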