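import Cfsg.Agent.LibPm5

set_option autoImplicit false

/-! Sylow 2-subgroups of `GL_2(q)`, `q` odd: normalizers (seat helper26). -/

namespace CfsgLib.Pm

open Matrix CfsgLib.FgSub

variable {F : Type*} [Field F]

theorem exists_X [Finite F] (δ : F) (hδ : δ * δ = 1) (hodd : ¬ 2 ∣ (NN δ hδ).index) :
    ∃ X : Subgroup (GL (Fin 2) F), IsPGroup 2 X ∧ ¬ 2 ∣ X.index ∧ nn F ∈ X ∧ X ≤ NN δ hδ := by
  haveI : Fact (Nat.Prime 2) := ⟨Nat.prime_two⟩
  have hn2 : (⟨nn F, nn_mem_NN δ hδ⟩ : NN δ hδ) ^ 2 = 1 := by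
    apply Subtype.ext
    show nn F ^ 2 = 1
    rw [pow_two, nn_nn]
  have h1 : IsPGroup 2 (Subgroup.zpowers (⟨nn F, nn_mem_NN δ hδ⟩ : NN δ hδ)) := by
    rintro ⟨x, hx⟩
    obtain ⟨n, rfl⟩ := Subgroup.mem_zpowers_iff.1 hx
    refine ⟨1, Subtype.ext ?_⟩
    show ((⟨nn F, nn_mem_NN δ hδ⟩ : NN δ hδ) ^ n) ^ 2 ^ 1 = 1
    rw [← zpow_natCast, zpow_comm, zpow_natCast, pow_one, hn2, _root_.one_zpow]
  obtain ⟨Q, hQ⟩ := h1.exists_le_sylow
  refine ⟨(Q : Subgroup (NN δ hδ)).map (NN δ hδ).subtype, Q.isPGroup'.map _, ?_, ?_, ?_⟩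
  · have e : ((Q : Subgroup (NN δ hδ)).map (NN δ hδ).subtype).subgroupOf (NN δ hδ) = Q :=
      Subgroup.comap_map_eq_self_of_injective (NN δ hδ).subtype_injective _
    have hle : (Q : Subgroup (NN δ hδ)).map (NN δ hδ).subtype ≤ NN δ hδ := Subgroup.map_subtype_le _
    rw [← Subgroup.relIndex_mul_index hle, Nat.prime_two.dvd_mul, not_or]
    refine ⟨?_, hodd⟩
    unfold Subgroup.relIndex
    rw [e]
    exact Q.not_dvd_index
  · exact ⟨⟨nn F, nn_mem_NN δ hδ⟩, hQ (Subgroup.mem_zpowers _), rfl⟩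
  · exact Subgroup.map_subtype_le _

theorem EE_conj {δ : F} {hδ : δ * δ = 1} {g y : GL (Fin 2) F} (hg : g ∈ NN δ hδ) (hy : y ∈ EE δ hδ) : g * y * g⁻¹ ∈ EE δ hδ := by
  rw [mem_EE] at hy ⊢
  rcases hg with h1 | h1
  · have h3 : g⁻¹ * uu δ hδ = uu δ hδ * g⁻¹ := by
      rw [inv_mul_eq_iff_eq_mul, ← mul_assoc, h1, mul_assoc, mul_inv_cancel, mul_one]
    rw [mul_assoc, h3, ← mul_assoc, mul_assoc g, hy, ← mul_assoc, h1]; group
  · have h3 : g⁻¹ * uu δ hδ = -(uu δ hδ * g⁻¹) := by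
      rw [inv_mul_eq_iff_eq_mul, mul_neg, ← mul_assoc, h1, neg_mul, neg_neg, mul_assoc, mul_inv_cancel, mul_one]
    rw [mul_assoc, h3, mul_neg, ← mul_assoc, mul_assoc g, hy, ← mul_assoc, h1, neg_mul, neg_mul, neg_neg]
    simp only [mul_assoc]

/-- the 2-elements of `EE` -/
def PE (δ : F) (hδ : δ * δ = 1) : Subgroup (GL (Fin 2) F) where
  carrier := {y | y ∈ EE δ hδ ∧ ∃ k, y ^ 2 ^ k = 1}
  one_mem' := ⟨(EE δ hδ).one_mem, 0, by simp⟩
  mul_mem' := by
    rintro a b ⟨ha, k, hk⟩ ⟨hb, l, hl⟩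
    refine ⟨(EE δ hδ).mul_mem ha hb, k + l, ?_⟩
    rw [Commute.mul_pow (EE_comm ha hb), pow_add, pow_mul, hk, one_pow, one_mul, mul_comm, pow_mul, hl, one_pow]
  inv_mem' := by
    rintro a ⟨ha, k, hk⟩
    exact ⟨(EE δ hδ).inv_mem ha, k, by rw [inv_pow, hk, inv_one]⟩

theorem two_mem [Finite F] {δ : F} {hδ : δ * δ = 1} {X : Subgroup (GL (Fin 2) F)} (hX1 : IsPGroup 2 X) (hX2 : ¬ 2 ∣ X.index)
    (hXN : X ≤ NN δ hδ) {y : GL (Fin 2) F} (hy : y ∈ EE δ hδ) {k : ℕ} (hk : y ^ 2 ^ k = 1) : y ∈ X := by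
  haveI : Fact (Nat.Prime 2) := ⟨Nat.prime_two⟩
  have hconj : ∀ g ∈ NN δ hδ, ∀ z ∈ PE δ hδ, g * z * g⁻¹ ∈ PE δ hδ := by
    rintro g hg z ⟨hz, l, hl⟩
    refine ⟨EE_conj hg hz, l, ?_⟩
    rw [conj_pow, hl, mul_one, mul_inv_cancel]
  have hnorm : X ≤ Subgroup.normalizer ((PE δ hδ : Subgroup (GL (Fin 2) F)) : Set (GL (Fin 2) F)) := by
    intro g hg
    rw [mem_normalizer_iff_cj]
    ext z
    rw [mem_cj]
    constructor
    · intro h
      have := hconj g (hXN hg) _ h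
      have e : g * (g⁻¹ * z * g) * g⁻¹ = z := by group
      rwa [e] at this
    · intro h
      have := hconj g⁻¹ (hXN (X.inv_mem hg)) _ h
      rwa [inv_inv] at this
  have hP : IsPGroup 2 (PE δ hδ) := by
    rintro ⟨z, hz, l, hl⟩
    exact ⟨l, Subtype.ext hl⟩
  have h3 : IsPGroup 2 (X ⊔ PE δ hδ : Subgroup (GL (Fin 2) F)) := IsPGroup.to_sup_of_normal_right' hX1 hP hnorm
  obtain ⟨S, hS⟩ := h3.exists_le_sylow
  have h4 : X = S := by
    apply Subgroup.eq_of_le_of_card_ge (le_sup_left.trans hS)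
    have e1 := Subgroup.card_mul_index X
    have e2 := Subgroup.card_mul_index (S : Subgroup (GL (Fin 2) F))
    obtain ⟨a, ha⟩ := IsPGroup.iff_card.1 hX1
    have h5 : Nat.Coprime (Nat.card S) X.index := by
      obtain ⟨b, hb⟩ := IsPGroup.iff_card.1 S.isPGroup'
      rw [hb]
      exact Nat.Coprime.pow_left _ ((Nat.prime_two.coprime_iff_not_dvd).2 hX2)
    have h6 : Nat.card S ∣ Nat.card X * X.index := by rw [e1, ← e2]; exact dvd_mul_right _ _
    exact Nat.le_of_dvd Nat.card_pos (h5.dvd_of_dvd_mul_right h6)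
  rw [h4]
  exact hS ((le_sup_right : PE δ hδ ≤ _) ⟨hy, k, hk⟩)

/-- matrices commuting with `u` and `n` are scalar -/
theorem comm_both {δ : F} (h2 : (2 : F) ≠ 0) {L : Matrix (Fin 2) (Fin 2) F} (h1 : L * !![0, δ; 1, 0] = !![0, δ; 1, 0] * L)
    (h3 : L * !![1, 0; 0, -1] = !![1, 0; 0, -1] * L) : L = L 0 0 • (1 : Matrix (Fin 2) (Fin 2) F) := by
  have h4 := comm_um h1
  have h5 : L 1 0 = 0 := by
    have := congrFun (congrFun h3 1) 0
    rw [Matrix.mul_apply, Matrix.mul_apply, Fin.sum_univ_two, Fin.sum_univ_two] at this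
    simp at this
    have h6 : (2 : F) * L 1 0 = 0 := by linear_combination this
    exact (mul_eq_zero.1 h6).resolve_left h2
  rw [h5] at h4
  rw [h4]
  ext i j; fin_cases i <;> fin_cases j <;> simp

/-- squares of anticommuting elements are central -/
theorem anti_sq {δ : F} {hδ : δ * δ = 1} {y : GL (Fin 2) F} (hy : y * uu δ hδ = -(uu δ hδ * y)) (g : GL (Fin 2) F) :
    g * (y * y) = y * y * g := by
  have h1 : (y : Matrix (Fin 2) (Fin 2) F) * !![0, δ; 1, 0] = -(!![0, δ; 1, 0] * (y : Matrix (Fin 2) (Fin 2) F)) := by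
    have := congrArg (fun g : GL (Fin 2) F => (g : Matrix (Fin 2) (Fin 2) F)) hy
    simpa [uu_val] using this
  have h2 := anti_um h1
  have h3 : (y : Matrix (Fin 2) (Fin 2) F) * (y : Matrix (Fin 2) (Fin 2) F) =
      ((y : Matrix (Fin 2) (Fin 2) F) 0 0 ^ 2 - δ * (y : Matrix (Fin 2) (Fin 2) F) 1 0 ^ 2) • (1 : Matrix (Fin 2) (Fin 2) F) := by
    conv_lhs => rw [h2]
    ext i j; fin_cases i <;> fin_cases j <;> simp [Matrix.mul_apply, Fin.sum_univ_two] <;> ring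
  apply Units.ext
  rw [Units.val_mul, Units.val_mul, Units.val_mul, Units.val_mul, h3]
  simp

/-- if the conjugate of `u` commutes with `u` then `g ∈ NN` -/
theorem conj_u {δ : F} {hδ : δ * δ = 1} (h2 : (2 : F) ≠ 0) {g : GL (Fin 2) F}
    (h : g * uu δ hδ * g⁻¹ ∈ EE δ hδ) : g ∈ NN δ hδ := by
  have hv := EE_val h
  set v := g * uu δ hδ * g⁻¹ with hvd
  have htr : (v : Matrix (Fin 2) (Fin 2) F).trace = 0 := by
    rw [hvd, Units.val_mul, Units.val_mul, Matrix.trace_mul_comm, ← mul_assoc, ← Units.val_mul, inv_mul_cancel, Units.val_one, one_mul,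
      uu_val, Matrix.trace_fin_two_of]
    simp
  have hdet : (v : Matrix (Fin 2) (Fin 2) F).det = -δ := by
    have h5 : (g : Matrix (Fin 2) (Fin 2) F).det * ((g⁻¹ : GL (Fin 2) F) : Matrix (Fin 2) (Fin 2) F).det = 1 := by
      rw [← det_mul, ← Units.val_mul, mul_inv_cancel, Units.val_one, det_one]
    rw [hvd, Units.val_mul, Units.val_mul, det_mul, det_mul, uu_val, det_fin_two_of]
    linear_combination (-δ) * h5
  rw [hv, Matrix.trace_fin_two_of] at htr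
  rw [hv, det_fin_two_of] at hdet
  have h0 : (v : Matrix (Fin 2) (Fin 2) F) 0 0 = 0 := by
    have h6 : (2 : F) * (v : Matrix (Fin 2) (Fin 2) F) 0 0 = 0 := by linear_combination htr
    exact (mul_eq_zero.1 h6).resolve_left h2
  rw [h0] at hdet hv
  have h1 : (v : Matrix (Fin 2) (Fin 2) F) 1 0 * (v : Matrix (Fin 2) (Fin 2) F) 1 0 = 1 := by
    linear_combination (-δ) * hdet + (1 - (v : Matrix (Fin 2) (Fin 2) F) 1 0 * (v : Matrix (Fin 2) (Fin 2) F) 1 0) * hδ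
  have key : v = uu δ hδ ∨ v = -uu δ hδ := by
    rcases mul_self_eq_one_iff.1 h1 with h3 | h3
    · left; apply Units.ext; rw [hv, h3, uu_val]; simp
    · right; apply Units.ext; rw [hv, h3, Units.val_neg, uu_val]; simp
  rw [mem_NN]
  rcases key with h3 | h3
  · left
    have := congrArg (· * g) h3
    simpa [hvd] using this
  · right
    have := congrArg (· * g) h3
    simpa [hvd] using this

/-- main step: an element `a ∈ EE` with square `z u` whose conjugate is in `NN` -/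
theorem norm_step {δ : F} {hδ : δ * δ = 1} (h2 : (2 : F) ≠ 0) {a z : GL (Fin 2) F} (hz : ∀ g, z * g = g * z)
    (ha : a * a = z * uu δ hδ) {g : GL (Fin 2) F} (hg : g * a * g⁻¹ ∈ NN δ hδ) : g ∈ NN δ hδ := by
  have hsq : (g * a * g⁻¹) * (g * a * g⁻¹) = z * (g * uu δ hδ * g⁻¹) := by
    calc (g * a * g⁻¹) * (g * a * g⁻¹) = g * (a * a) * g⁻¹ := by group
      _ = g * z * uu δ hδ * g⁻¹ := by rw [ha]; group
      _ = _ := by rw [← hz]; group
  rcases hg with h1 | h1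
  · apply conj_u h2
    have h3 : (g * a * g⁻¹) * (g * a * g⁻¹) ∈ EE δ hδ := (EE δ hδ).mul_mem h1 h1
    rw [hsq] at h3
    have h4 : z ∈ EE δ hδ := hz _
    have := (EE δ hδ).mul_mem ((EE δ hδ).inv_mem h4) h3
    rwa [inv_mul_cancel_left] at this
  · exfalso
    have h3 := anti_sq h1
    rw [hsq] at h3
    -- z * (g u g⁻¹) central hence u central
    have h4 : nn F * uu δ hδ = uu δ hδ * nn F := by
      have h5 := h3 (g * nn F * g⁻¹)
      have h6 : g * nn F * g⁻¹ * (z * (g * uu δ hδ * g⁻¹)) = z * g * (nn F * uu δ hδ) * g⁻¹ := by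
        rw [← mul_assoc, ← hz]; group
      have h7 : z * (g * uu δ hδ * g⁻¹) * (g * nn F * g⁻¹) = z * g * (uu δ hδ * nn F) * g⁻¹ := by group
      rw [h6, h7] at h5
      exact mul_left_cancel (mul_right_cancel h5)
    rw [nn_uu] at h4
    have h8 := congrArg (fun g : GL (Fin 2) F => (g : Matrix (Fin 2) (Fin 2) F) 1 0) h4
    simp [uu_val, nn_val, Matrix.mul_apply, Fin.sum_univ_two] at h8
    apply h2
    first
      | linear_combination h8
      | linear_combination -h8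

end CfsgLib.Pm
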