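import Cfsg.Agent.LibPm6

set_option autoImplicit false

/-! Sylow 2-subgroups of `GL_2(q)`, `q` odd: the base case (seat helper26). -/

namespace CfsgLib.Pm

open Matrix CfsgLib.FgSub

variable {F : Type*} [Field F]

/-- scalar elements -/
def sc (c : F) (hc : c ≠ 0) : GL (Fin 2) F := GeneralLinearGroup.mkOfDetNeZero !![c, 0; 0, c] (by
  rw [det_fin_two_of]; simpa using hc)

theorem sc_val (c : F) (hc : c ≠ 0) : ((sc c hc : GL (Fin 2) F) : Matrix (Fin 2) (Fin 2) F) = c • (1 : Matrix (Fin 2) (Fin 2) F) := by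
  change !![c, 0; 0, c] = _
  ext i j; fin_cases i <;> fin_cases j <;> simp

theorem sc_comm (c : F) (hc : c ≠ 0) (g : GL (Fin 2) F) : sc c hc * g = g * sc c hc := by
  apply Units.ext
  rw [Units.val_mul, Units.val_mul, sc_val]
  simp

theorem nng {δ : F} {hδ : δ * δ = 1} {g : GL (Fin 2) F} (hg : g ∈ EE δ hδ) :
    ((nn F * g * nn F * g : GL (Fin 2) F) : Matrix (Fin 2) (Fin 2) F) = (g : Matrix (Fin 2) (Fin 2) F).det • (1 : Matrix (Fin 2) (Fin 2) F) := by
  rw [Units.val_mul, Units.val_mul, Units.val_mul, nn_val, EE_val hg, det_fin_two_of]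
  ext i j; fin_cases i <;> fin_cases j <;> simp [Matrix.mul_apply, Fin.sum_univ_two] <;> ring

theorem base_nrm1 [Finite F] {δ : F} {hδ : δ * δ = 1} (h2 : (2 : F) ≠ 0) {X : Subgroup (GL (Fin 2) F)} (hX1 : IsPGroup 2 X)
    (hX2 : ¬ 2 ∣ X.index) (hXN : X ≤ NN δ hδ) (hn : nn F ∈ X) {g : GL (Fin 2) F} (hg : g ∈ EE δ hδ) (hgX : cj g X = X) :
    ∃ x ∈ X, ∃ c : F, (g : Matrix (Fin 2) (Fin 2) F) = c • (x : Matrix (Fin 2) (Fin 2) F) := by
  have ht : g * nn F * g⁻¹ * nn F ∈ X := by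
    apply X.mul_mem _ hn
    rw [← hgX]
    exact conj_mem_cj hn
  have hz : ∀ h, (nn F * g * nn F * g) * h = h * (nn F * g * nn F * g) := by
    intro h
    apply Units.ext
    rw [Units.val_mul, Units.val_mul h, nng hg]
    simp
  have e : g * g = (g * nn F * g⁻¹ * nn F) * (nn F * g * nn F * g) := by
    have : (g * nn F * g⁻¹ * nn F) * (nn F * g * nn F * g) = g * nn F * g⁻¹ * (nn F * nn F) * g * nn F * g := by group
    rw [this, nn_nn]
    have : g * nn F * g⁻¹ * 1 * g * nn F * g = g * (nn F * nn F) * g := by group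
    rw [this, nn_nn, mul_one]
  obtain ⟨j, hj⟩ := hX1 ⟨_, ht⟩
  have hj' : (g * nn F * g⁻¹ * nn F) ^ 2 ^ j = 1 := congrArg Subtype.val hj
  have h3 : g ^ 2 ^ (j + 1) ∈ Subgroup.center (GL (Fin 2) F) := by
    have : g ^ 2 ^ (j + 1) = (nn F * g * nn F * g) ^ 2 ^ j := by
      rw [pow_succ', pow_mul, pow_two, e, Commute.mul_pow (hz _).symm, hj', one_mul]
    rw [this]
    apply Subgroup.pow_mem
    rw [Subgroup.mem_center_iff]
    exact fun h => (hz h).symm
  obtain ⟨i, k, z, hzc, hik, hgz⟩ := split_part g _ h3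
  have hmem : g ^ i ∈ X := two_mem hX1 hX2 hXN ((EE δ hδ).zpow_mem hg i) hik
  rw [Subgroup.mem_center_iff] at hzc
  refine ⟨g ^ i, hmem, (z : Matrix (Fin 2) (Fin 2) F) 0 0, ?_⟩
  have hzs := comm_both (δ := δ) h2 (L := (z : Matrix (Fin 2) (Fin 2) F)) (by
      have := congrArg (fun g : GL (Fin 2) F => (g : Matrix (Fin 2) (Fin 2) F)) (hzc (uu δ hδ))
      simp only [Units.val_mul, uu_val] at this
      exact this.symm) (by
      have := congrArg (fun g : GL (Fin 2) F => (g : Matrix (Fin 2) (Fin 2) F)) (hzc (nn F))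
      simp only [Units.val_mul, nn_val] at this
      exact this.symm)
  conv_lhs => rw [hgz, Units.val_mul, hzs]
  simp

theorem base_nrm [Finite F] {δ : F} {hδ : δ * δ = 1} (h2 : (2 : F) ≠ 0) {X : Subgroup (GL (Fin 2) F)} (hX1 : IsPGroup 2 X)
    (hX2 : ¬ 2 ∣ X.index) (hXN : X ≤ NN δ hδ) (hn : nn F ∈ X) {a z : GL (Fin 2) F} (hz : ∀ g, z * g = g * z) (haX : a ∈ X)
    (ha : a * a = z * uu δ hδ) {g : GL (Fin 2) F} (hgX : cj g X = X) :
    ∃ x ∈ X, ∃ c : F, (g : Matrix (Fin 2) (Fin 2) F) = c • (x : Matrix (Fin 2) (Fin 2) F) := by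
  have h3 : g ∈ NN δ hδ := by
    apply norm_step h2 hz ha
    apply hXN
    rw [← hgX]
    exact conj_mem_cj haX
  rcases h3 with h3 | h3
  · exact base_nrm1 h2 hX1 hX2 hXN hn h3 hgX
  · obtain ⟨x, hx, c, hc⟩ := base_nrm1 h2 hX1 hX2 hXN hn (anti_mul_nn h3) (by rw [← cj_cj, cj_eq_of_mem hn, hgX])
    refine ⟨x * nn F, X.mul_mem hx hn, c, ?_⟩
    have : g = g * nn F * nn F := by rw [mul_assoc, nn_nn, mul_one]
    rw [this, Units.val_mul, hc, Units.val_mul, smul_mul_assoc]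

/-- elements of `EE` from parameters -/
theorem exists_EE (δ : F) (hδ : δ * δ = 1) (a b : F) (h : a * a - δ * b * b ≠ 0) :
    ∃ g ∈ EE δ hδ, (g : Matrix (Fin 2) (Fin 2) F) = !![a, δ * b; b, a] ∧ (g : Matrix (Fin 2) (Fin 2) F).det = a * a - δ * b * b := by
  refine ⟨GeneralLinearGroup.mkOfDetNeZero !![a, δ * b; b, a] (by
      rw [det_fin_two_of]
      intro h0
      apply h
      linear_combination h0), ?_, rfl, ?_⟩
  · rw [mem_EE]
    apply Units.ext
    rw [Units.val_mul, Units.val_mul, uu_val]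
    change !![a, δ * b; b, a] * _ = _ * !![a, δ * b; b, a]
    ext i j; fin_cases i <;> fin_cases j <;> simp [Matrix.mul_apply, Fin.sum_univ_two] <;> ring
  · change (!![a, δ * b; b, a] : Matrix (Fin 2) (Fin 2) F).det = _
    rw [det_fin_two_of]

theorem exists_a (δ : F) (hδ : δ * δ = 1) (h2 : (2 : F) ≠ 0) (α β : F) (hα : α * α + δ * β * β = 0) (h4 : (2 * α * β) ^ 4 = 1) :
    ∃ g ∈ EE δ hδ, g ^ 2 ^ 3 = 1 ∧ (g : Matrix (Fin 2) (Fin 2) F).det = α * α - δ * β * β ∧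
      ∃ z : GL (Fin 2) F, (∀ g, z * g = g * z) ∧ g * g = z * uu δ hδ := by
  have hαβ : 2 * α * β ≠ 0 := by
    intro h0
    rw [h0] at h4
    simp at h4
  have hα0 : α ≠ 0 := fun h0 => hαβ (by rw [h0]; ring)
  have hne : α * α - δ * β * β ≠ 0 := by
    have : α * α - δ * β * β = 2 * (α * α) := by linear_combination -hα
    rw [this]
    exact mul_ne_zero h2 (mul_ne_zero hα0 hα0)
  obtain ⟨g, hg, hgv, hgd⟩ := exists_EE δ hδ α β hne
  have hgg : g * g = sc (2 * α * β) hαβ * uu δ hδ := by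
    apply Units.ext
    rw [Units.val_mul, Units.val_mul, sc_val, hgv, uu_val]
    ext i j; fin_cases i <;> fin_cases j <;> simp [Matrix.mul_apply, Fin.sum_univ_two]
    all_goals first
      | linear_combination hα
      | ring
  refine ⟨g, hg, ?_, hgd, sc (2 * α * β) hαβ, sc_comm _ _, hgg⟩
  have h5 : (sc (2 * α * β) hαβ) ^ 4 = 1 := by
    apply Units.ext
    rw [Units.val_pow_eq_pow_val, sc_val, smul_pow, one_pow, h4, one_smul, Units.val_one]
  have h6 : uu δ hδ ^ 4 = 1 := by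
    have h7 : uu δ hδ ^ 2 = sc δ (by rintro rfl; simp at hδ) := by
      apply Units.ext
      rw [Units.val_pow_eq_pow_val, sc_val, uu_val, pow_two]
      ext i j; fin_cases i <;> fin_cases j <;> simp [Matrix.mul_apply, Fin.sum_univ_two]
    rw [show (4 : ℕ) = 2 * 2 by norm_num, pow_mul, h7]
    apply Units.ext
    rw [Units.val_pow_eq_pow_val, sc_val, smul_pow, one_pow, pow_two, hδ, one_smul, Units.val_one]
  rw [show (2 : ℕ) ^ 3 = 2 * 4 by norm_num, pow_mul, pow_two, hgg, Commute.mul_pow (sc_comm _ _ _), h5, h6, one_mul]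

/-- base case data -/
structure BD (δ : F) (hδ : δ * δ = 1) (X : Subgroup (GL (Fin 2) F)) : Prop where
  ps : PS X
  le : X ≤ NN δ hδ
  hn : nn F ∈ X
  tw : ∀ y ∈ EE δ hδ, ∀ k : ℕ, y ^ 2 ^ k = 1 → y ∈ X
  ex : ∃ e ∈ EE δ hδ, e ∈ X ∧ (e : Matrix (Fin 2) (Fin 2) F).det = -1

theorem base [Finite F] {δ : F} (hδ : δ * δ = 1) (h2 : (2 : F) ≠ 0) {s : F} (hs : s * s = -δ) {ea eb : F} (he : ea * ea - δ * eb * eb = -1)
    {α β : F} (hα : α * α + δ * β * β = 0) (hαβ : (2 * α * β) ^ 2 = 1) (hodd : ¬ 2 ∣ (NN δ hδ).index) :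
    ∃ X : Subgroup (GL (Fin 2) F), BD δ hδ X := by
  obtain ⟨X, hX1, hX2, hn, hXN⟩ := exists_X δ hδ hodd
  obtain ⟨a, haE, ha8, -, z, hz, haa⟩ := exists_a δ hδ h2 α β hα (by
    rw [show (4 : ℕ) = 2 * 2 by norm_num, pow_mul, hαβ, one_pow])
  have htw : ∀ y ∈ EE δ hδ, ∀ k : ℕ, y ^ 2 ^ k = 1 → y ∈ X := fun y hy k hk => two_mem hX1 hX2 hXN hy hk
  have haX : a ∈ X := htw a haE 3 ha8
  obtain ⟨e0, he0E, -, he0d⟩ := exists_EE δ hδ ea eb (by rw [he]; simp)
  obtain ⟨m, k, hm, hmk⟩ := two_part e0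
  have heX : e0 ^ m ∈ X := htw _ ((EE δ hδ).pow_mem he0E m) k hmk
  have hed : ((e0 ^ m : GL (Fin 2) F) : Matrix (Fin 2) (Fin 2) F).det = -1 := by
    rw [Units.val_pow_eq_pow_val, det_pow, he0d, he, hm.neg_one_pow]
  refine ⟨X, ⟨hX1, hX2, fun g hg => base_nrm h2 hX1 hX2 hXN hn hz haX haa hg, ?_⟩, hXN, hn, htw, e0 ^ m,
    (EE δ hδ).pow_mem he0E m, heX, hed⟩
  intro L hL
  have hδ0 : δ ≠ 0 := by rintro rfl; simp at hδ
  have hs0 : s ≠ 0 := by
    rintro rfl
    apply hδ0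
    linear_combination hs
  obtain ⟨w, hwE, hwv, hwd⟩ := exists_EE δ hδ 0 s (by
    rw [mul_assoc, hs]
    intro h0
    have : δ * δ = 0 := by linear_combination h0
    rw [hδ] at this
    exact one_ne_zero this)
  have hwX : w ∈ X := by
    apply htw w hwE 2
    have h3 : w ^ 2 = -1 := by
      apply Units.ext
      rw [Units.val_pow_eq_pow_val, hwv, pow_two, Units.val_neg, Units.val_one]
      ext i j; fin_cases i <;> fin_cases j <;> simp [Matrix.mul_apply, Fin.sum_univ_two]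
      · linear_combination δ * hs - hδ
      · linear_combination δ * hs - hδ
    rw [pow_two, pow_mul, h3]
    simp
  have h5 := hL w hwX (by rw [hwd]; linear_combination (-δ) * hs + hδ)
  have hLu : L * !![0, δ; 1, 0] = !![0, δ; 1, 0] * L := by
    have h6 : (w : Matrix (Fin 2) (Fin 2) F) = s • !![0, δ; 1, 0] := by
      rw [hwv]
      ext i j; fin_cases i <;> fin_cases j <;> simp [mul_comm]
    rw [h6, mul_smul_comm, smul_mul_assoc] at h5
    exact smul_right_injective _ hs0 h5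
  have h7 := hL (e0 ^ m * nn F) (X.mul_mem heX hn) (by
    rw [Units.val_mul, det_mul, hed, nn_val, det_fin_two_of]; ring)
  have hLe : L * ((e0 ^ m : GL (Fin 2) F) : Matrix (Fin 2) (Fin 2) F) = ((e0 ^ m : GL (Fin 2) F) : Matrix (Fin 2) (Fin 2) F) * L := by
    rw [EE_val ((EE δ hδ).pow_mem he0E m), comm_um hLu]
    ext i j; fin_cases i <;> fin_cases j <;> simp [Matrix.mul_apply, Fin.sum_univ_two] <;> ring
  have hLn : L * !![1, 0; 0, -1] = !![1, 0; 0, -1] * L := by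
    rw [Units.val_mul, ← mul_assoc, hLe, nn_val, mul_assoc, mul_assoc] at h7
    have h8 := congrArg (fun A => (((e0 ^ m : GL (Fin 2) F)⁻¹ : GL (Fin 2) F) : Matrix (Fin 2) (Fin 2) F) * A) h7
    simp only [← mul_assoc, ← Units.val_mul, inv_mul_cancel, Units.val_one, one_mul] at h8
    exact h8
  exact ⟨_, comm_both h2 hLu hLn⟩

/-- for `q ≡ ±1 mod 8` the Sylow 2-subgroups of `SL_2(q)` are self-normalizing -/
theorem self_norm [Finite F] {δ : F} {hδ : δ * δ = 1} (h2 : (2 : F) ≠ 0) {X : Subgroup (GL (Fin 2) F)} (hX : BD δ hδ X)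
    {α β : F} (h1 : α * α - δ * β * β = 1) (h3 : α * α + δ * β * β = 0) {g : GL (Fin 2) F} (hg : g ∈ DD (Fin 2) F)
    (hgX : cj g (X ⊓ DD (Fin 2) F) = X ⊓ DD (Fin 2) F) : g ∈ X := by
  obtain ⟨a, haE, ha8, had, z, hz, haa⟩ := exists_a δ hδ h2 α β h3 (by
    have h5 : 2 * (α * α) = 1 := by linear_combination h1 + h3
    have h6 : β * β = -δ * (α * α) := by linear_combination (-δ) * (-h3) - (β * β) * hδ
    have h7 : (2 * α * β) ^ 2 = -δ := by
      have : (2 * α * β) ^ 2 = 2 * (2 * (α * α)) * (β * β) := by ring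
      rw [this, h5, h6]
      linear_combination (-δ) * h5
    rw [show (4 : ℕ) = 2 * 2 by norm_num, pow_mul, h7]
    linear_combination hδ)
  have haX : a ∈ X ⊓ DD (Fin 2) F := ⟨hX.tw a haE 3 ha8, mem_DD.2 (by rw [had, h1])⟩
  have hgN : g ∈ NN δ hδ := by
    apply norm_step h2 hz haa
    apply hX.le
    have : g * a * g⁻¹ ∈ cj g (X ⊓ DD (Fin 2) F) := conj_mem_cj haX
    rw [hgX] at this
    exact this.1
  obtain ⟨e, heE, heX, hed⟩ := hX.ex
  have hw : e * nn F ∈ X ⊓ DD (Fin 2) F := ⟨X.mul_mem heX hX.hn, mem_DD.2 (by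
    rw [Units.val_mul, det_mul, hed, nn_val, det_fin_two_of]; ring)⟩
  have key : ∀ h : GL (Fin 2) F, h ∈ EE δ hδ → h ∈ DD (Fin 2) F → cj h (X ⊓ DD (Fin 2) F) = X ⊓ DD (Fin 2) F → h ∈ X := by
    intro h hE hD hc
    have h4 : h * (e * nn F) * h⁻¹ ∈ X := by
      have : h * (e * nn F) * h⁻¹ ∈ cj h (X ⊓ DD (Fin 2) F) := conj_mem_cj hw
      rw [hc] at this
      exact this.1
    have h5 : nn F * h * nn F * h = 1 := by
      apply Units.ext
      rw [nng hE, mem_DD.1 hD, one_smul, Units.val_one]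
    have h6 : nn F * h⁻¹ = h * nn F := by
      have h7 : h⁻¹ = nn F * h * nn F := (eq_inv_of_mul_eq_one_left h5).symm
      rw [h7, mul_assoc, ← mul_assoc, nn_nn, one_mul]
    have h8 : e⁻¹ * (h * (e * nn F) * h⁻¹) * nn F = h * h := by
      have h9 : e⁻¹ * (h * (e * nn F) * h⁻¹) * nn F = e⁻¹ * (h * e) * (nn F * h⁻¹) * nn F := by group
      rw [h9, h6, EE_comm hE heE]
      have h10 : e⁻¹ * (e * h) * (h * nn F) * nn F = h * h * (nn F * nn F) := by group
      rw [h10, nn_nn, mul_one]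
    have h11 : h * h ∈ X := by
      rw [← h8]
      exact X.mul_mem (X.mul_mem (X.inv_mem heX) h4) hX.hn
    obtain ⟨k, hk⟩ := hX.ps.two ⟨_, h11⟩
    have hk' : (h * h) ^ 2 ^ k = 1 := congrArg Subtype.val hk
    apply hX.tw h hE (k + 1)
    rw [pow_succ', pow_mul, pow_two, hk']
  rcases hgN with h | h
  · exact key g h hg hgX
  · have h4 : g * (e * nn F) ∈ EE δ hδ := by
      rw [mem_EE, mul_assoc, mul_assoc, nn_uu, mul_neg, mul_neg, ← mul_assoc e, heE, ← mul_assoc, ← mul_assoc, ← mul_assoc, h]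
      simp only [mul_assoc, neg_mul, neg_neg]
    have h5 := key _ h4 ((DD (Fin 2) F).mul_mem hg hw.2) (by rw [← cj_cj, cj_eq_of_mem hw, hgX])
    have := X.mul_mem h5 (X.inv_mem hw.1)
    rwa [mul_inv_cancel_right] at this

end CfsgLib.Pm
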