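import Cfsg.Agent.LibPm1

set_option autoImplicit false

/-! Pronormality of overgroups of a Sylow Klein four-group (seat helper26). -/

namespace CfsgLib.Pm

open CfsgLib.FgSub CfsgLib.H7Pron Cfsg

variable {G : Type*} [Group G] [Finite G]

theorem cj_mem_iff' {g x : G} {H : Subgroup G} (h : cj g H = H) : g * x * g⁻¹ ∈ H ↔ x ∈ H := by
  constructor
  · intro hx
    rw [← h, mem_cj] at hx
    have e : g⁻¹ * (g * x * g⁻¹) * g = x := by group
    rwa [e] at hx
  · intro hx
    rw [← h]
    exact conj_mem_cj hx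

theorem cj_inv_eq {g : G} {H : Subgroup G} (h : cj g H = H) : cj g⁻¹ H = H := by
  conv_lhs => rw [← h]
  rw [cj_cj, inv_mul_cancel, cj_eq_of_mem (Subgroup.one_mem _)]

/-- hypotheses: `E` is a Sylow `2`-subgroup `{1,a,b,ab}` that is self-centralizing -/
structure K4 (E : Sylow 2 G) (a b : G) : Prop where
  aa : a * a = 1
  bb : b * b = 1
  ab : a * b = b * a
  a1 : a ≠ 1
  b1 : b ≠ 1
  ne : a ≠ b
  mem : ∀ x : G, x ∈ E ↔ (x = 1 ∨ x = a ∨ x = b ∨ x = a * b)
  cen : ∀ x : G, x * a = a * x → x * b = b * x → x ∈ E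

variable {E : Sylow 2 G} {a b : G}

theorem K4.sq (h : K4 E a b) {x : G} (hx : x ∈ E) : x * x = 1 := by
  rcases (h.mem x).1 hx with rfl | rfl | rfl | rfl
  · simp
  · exact h.aa
  · exact h.bb
  · rw [mul_assoc, ← mul_assoc b, ← h.ab, mul_assoc a b b, h.bb, mul_one, h.aa]

theorem K4.comm (h : K4 E a b) {x y : G} (hx : x ∈ E) (hy : y ∈ E) : x * y = y * x := by
  have h1 := h.sq hx
  have h2 := h.sq hy
  have h3 := h.sq (mul_mem hx hy)
  have e1 : x⁻¹ = x := inv_eq_of_mul_eq_one_right h1
  have e2 : y⁻¹ = y := inv_eq_of_mul_eq_one_right h2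
  have e3 : (x * y)⁻¹ = x * y := inv_eq_of_mul_eq_one_right h3
  rw [← e3, mul_inv_rev, e1, e2]

/-- any two distinct nontrivial elements generate -/
theorem K4.gen (h : K4 E a b) {v w : G} (hv : v ∈ E) (hw : w ∈ E) (hv1 : v ≠ 1) (hw1 : w ≠ 1) (hvw : v ≠ w) :
    K4 E v w := by
  have hvw' := h.comm hv hw
  have hcard : ∀ x : G, x ∈ E ↔ (x = 1 ∨ x = v ∨ x = w ∨ x = v * w) := by
    intro x
    constructor
    · intro hx
      have h1 := (h.mem x).1 hx
      have h2 := (h.mem v).1 hv
      have h3 := (h.mem w).1 hw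
      have hba : b * a = a * b := h.ab.symm
      have e1 : a * (a * b) = b := by rw [← mul_assoc, h.aa, one_mul]
      have e2 : b * (a * b) = a := by rw [h.ab, ← mul_assoc, h.bb, one_mul]
      have e3 : a * b * a = b := by rw [h.ab, mul_assoc, h.aa, mul_one]
      have e4 : a * b * b = a := by rw [mul_assoc, h.bb, mul_one]
      rcases h1 with rfl | rfl | rfl | rfl <;> rcases h2 with rfl | rfl | rfl | rfl <;> rcases h3 with rfl | rfl | rfl | rfl <;>
        simp_all
    · rintro (rfl | rfl | rfl | rfl)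
      · exact one_mem _
      · exact hv
      · exact hw
      · exact mul_mem hv hw
  refine ⟨h.sq hv, h.sq hw, hvw', hv1, hw1, hvw, hcard, ?_⟩
  intro x hxv hxw
  have hxvw : x * (v * w) = v * w * x := by rw [← mul_assoc, hxv, mul_assoc, hxw, mul_assoc]
  have key : ∀ y ∈ E, x * y = y * x := by
    intro y hy
    rcases (hcard y).1 hy with rfl | rfl | rfl | rfl
    · simp
    · exact hxv
    · exact hxw
    · exact hxvw
  exact h.cen x (key a ((h.mem a).2 (Or.inr (Or.inl rfl)))) (key b ((h.mem b).2 (Or.inr (Or.inr (Or.inl rfl)))))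

/-- elements of the normalizer outside `E` move every nontrivial element of `E` -/
theorem K4.move (h : K4 E a b) {n : G} (hn : cj n (E : Subgroup G) = E) (hnE : n ∉ E) {v : G} (hv : v ∈ E) (hv1 : v ≠ 1) :
    n * v * n⁻¹ ≠ v := by
  intro hnv
  apply hnE
  -- choose w
  obtain ⟨w, hw, hw1, hvw⟩ : ∃ w ∈ E, w ≠ 1 ∧ v ≠ w := by
    by_cases hva : v = a
    · exact ⟨b, (h.mem b).2 (by simp), h.b1, by rw [hva]; exact h.ne⟩
    · exact ⟨a, (h.mem a).2 (by simp), h.a1, hva⟩
  have hk := h.gen hv hw hv1 hw1 hvw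
  have hnv' : n * v = v * n := by
    have := congrArg (· * n) hnv
    simpa using this
  have hnw : n * w * n⁻¹ ∈ E := (cj_mem_iff' hn).2 hw
  rcases (hk.mem _).1 hnw with h1 | h1 | h1 | h1
  · exact absurd (by simpa [mul_inv_eq_one] using h1) hw1
  · exfalso
    apply hvw
    rw [← hnv] at h1
    exact (mul_left_cancel (mul_right_cancel h1)).symm
  · apply hk.cen n hnv'
    have := congrArg (· * n) h1
    simpa using this
  · -- n² centralizes
    have h2 : n * n ∈ E := by
      apply hk.cen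
      · rw [mul_assoc, hnv', ← mul_assoc, hnv', mul_assoc]
      · have h3 : n * w = v * w * n := by
          have := congrArg (· * n) h1
          simpa using this
        have hvv := hk.aa
        calc n * n * w = n * (n * w) := by group
          _ = n * (v * w * n) := by rw [h3]
          _ = (n * v) * w * n := by group
          _ = v * (n * w) * n := by rw [hnv']; group
          _ = v * (v * w * n) * n := by rw [h3]
          _ = (v * v) * (w * (n * n)) := by group
          _ = w * (n * n) := by rw [hvv, one_mul]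
    have h4 : n ^ 2 ^ 2 = 1 := by
      have := h.sq h2
      rw [show (2 : ℕ) ^ 2 = 4 by norm_num, pow_succ, pow_succ, pow_succ, pow_one]
      simpa [mul_assoc] using this
    haveI : Fact (Nat.Prime 2) := ⟨Nat.prime_two⟩
    exact mem_of_norm E hn h4

/-- any intermediate group containing one outer element of the normalizer contains all -/
theorem K4.all (h : K4 E a b) {K : Subgroup G} (hEK : (E : Subgroup G) ≤ K) {g n : G} (hg : cj g (E : Subgroup G) = E) (hgK : g ∈ K)
    (hgE : g ∉ E) (hn : cj n (E : Subgroup G) = E) : n ∈ K := by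
  by_cases hnE : n ∈ E
  · exact hEK hnE
  have ha : a ∈ E := (h.mem a).2 (by simp)
  have e1 := h.move hg hgE ha h.a1
  have e2 := h.move hn hnE ha h.a1
  have hinvg := cj_inv_eq hg
  -- if `m` normalizes and agrees with `n` on `a`
  have key : ∀ m : G, cj m (E : Subgroup G) = E → m ∈ K → m * a * m⁻¹ = n * a * n⁻¹ → n ∈ K := by
    intro m hm hmK he
    by_contra hc
    have h3 : m⁻¹ * n ∉ E := by
      intro h4
      apply hc
      have := K.mul_mem hmK (hEK h4)
      rwa [mul_inv_cancel_left] at this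
    have h4 : cj (m⁻¹ * n) (E : Subgroup G) = E := by rw [← cj_cj, hn, cj_inv_eq hm]
    apply h.move h4 h3 ha h.a1
    have : (m⁻¹ * n) * a * (m⁻¹ * n)⁻¹ = m⁻¹ * (n * a * n⁻¹) * m := by group
    rw [this, ← he]
    group
  by_cases he : g * a * g⁻¹ = n * a * n⁻¹
  · exact key g hg hgK he
  -- w = g a g⁻¹
  have hw : g * a * g⁻¹ ∈ E := (cj_mem_iff' hg).2 ha
  have hw1 : g * a * g⁻¹ ≠ 1 := by
    intro h0
    exact h.a1 (by simpa [mul_inv_eq_one] using h0)
  have hk := h.gen ha hw h.a1 hw1 (Ne.symm e1)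
  have hna : n * a * n⁻¹ ∈ E := (cj_mem_iff' hn).2 ha
  have hn1 : n * a * n⁻¹ ≠ 1 := by
    intro h0
    exact h.a1 (by simpa [mul_inv_eq_one] using h0)
  have hn3 : n * a * n⁻¹ = a * (g * a * g⁻¹) := by
    rcases (hk.mem _).1 hna with h5 | h5 | h5 | h5
    · exact absurd h5 hn1
    · exact absurd h5 e2
    · exact absurd h5.symm he
    · exact h5
  have hgw : g * (g * a * g⁻¹) * g⁻¹ ∈ E := (cj_mem_iff' hg).2 hw
  have hg3 : g * (g * a * g⁻¹) * g⁻¹ = a * (g * a * g⁻¹) := by
    rcases (hk.mem _).1 hgw with h5 | h5 | h5 | h5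
    · exact absurd (by simpa [mul_inv_eq_one] using h5) hw1
    · -- swaps
      exfalso
      have h6 : a * (g * a * g⁻¹) ∈ E := mul_mem ha hw
      have h7 : a * (g * a * g⁻¹) ≠ 1 := by
        intro h0
        have := congrArg (a * ·) h0
        simp only [← mul_assoc, h.aa, one_mul, mul_one] at this
        exact e1 this
      apply h.move hg hgE h6 h7
      have : g * (a * (g * a * g⁻¹)) * g⁻¹ = (g * a * g⁻¹) * (g * (g * a * g⁻¹) * g⁻¹) := by group
      rw [this, h5]
      exact h.comm hw ha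
    · exfalso
      exact h.move hg hgE hw hw1 h5
    · exact h5
  apply key (g * g) (by rw [← cj_cj, hg, hg]) (K.mul_mem hgK hgK)
  rw [hn3, ← hg3]
  group

end CfsgLib.Pm
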