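import Cfsg.Agent.LibPm7

set_option autoImplicit false

/-! Sylow 2-subgroups of `GL_{2^w}(q)`, `q` odd: all cases (seat helper26). -/

namespace CfsgLib.Pm

open Matrix CfsgLib.FgSub

theorem sq_sum (F : Type*) [Field F] [Fintype F] (hq : Odd (Fintype.card F)) : ∃ x y : F, x * x + y * y = -1 := by
  obtain ⟨a, b, hab⟩ := FiniteField.exists_root_sum_quadratic (R := F) (f := Polynomial.X ^ 2 + Polynomial.C 1) (g := Polynomial.X ^ 2)
    (Polynomial.degree_X_pow_add_C (by norm_num) _) (Polynomial.degree_X_pow 2) (Nat.odd_iff.1 hq)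
  refine ⟨a, b, ?_⟩
  simp at hab
  linear_combination hab

theorem card_EE_one (F : Type*) [Field F] [Fintype F] (h2 : (2 : F) ≠ 0) (hδ : (1 : F) * 1 = 1) :
    Nat.card (EE (1 : F) hδ) = (Fintype.card F - 1) * (Fintype.card F - 1) := by
  classical
  rw [Nat.card_congr (EEequiv (1 : F) hδ)]
  have e : {p : F × F // p.1 * p.1 - 1 * p.2 * p.2 ≠ 0} ≃ Fˣ × Fˣ :=
    { toFun := fun p => (Units.mk0 (p.1.1 + p.1.2) (fun h => p.2 (by linear_combination (p.1.1 - p.1.2) * h)),
        Units.mk0 (p.1.1 - p.1.2) (fun h => p.2 (by linear_combination (p.1.1 + p.1.2) * h)))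
      invFun := fun p => ⟨(((p.1 : F) + p.2) / 2, ((p.1 : F) - p.2) / 2), by
        intro h
        have h3 : (p.1 : F) * p.2 = 0 := by
          have : ((p.1 : F) + p.2) / 2 * (((p.1 : F) + p.2) / 2) - 1 * (((p.1 : F) - p.2) / 2) * (((p.1 : F) - p.2) / 2) = (p.1 : F) * p.2 := by
            field_simp
            ring
          rw [← this]; exact h
        exact (mul_ne_zero p.1.ne_zero p.2.ne_zero) h3⟩
      left_inv := by
        rintro ⟨⟨a, b⟩, h⟩
        apply Subtype.ext
        apply Prod.ext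
        · show ((a + b) + (a - b)) / 2 = a
          field_simp; ring
        · show ((a + b) - (a - b)) / 2 = b
          field_simp; ring
      right_inv := by
        rintro ⟨a, b⟩
        apply Prod.ext
        · apply Units.ext
          show ((a : F) + b) / 2 + ((a : F) - b) / 2 = a
          field_simp; ring
        · apply Units.ext
          show ((a : F) + b) / 2 - ((a : F) - b) / 2 = b
          field_simp; ring }
  rw [Nat.card_congr e, Nat.card_prod, Nat.card_units, Nat.card_eq_fintype_card]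

theorem card_EE_neg (F : Type*) [Field F] [Fintype F] (h4 : Fintype.card F % 4 = 3) (hδ : (-1 : F) * (-1) = 1) :
    Nat.card (EE (-1 : F) hδ) = Fintype.card F * Fintype.card F - 1 := by
  classical
  rw [Nat.card_congr (EEequiv (-1 : F) hδ)]
  have hns : ¬ IsSquare (-1 : F) := by
    rw [FiniteField.isSquare_neg_one_iff, not_not]
    exact h4
  have e : {p : F × F // p.1 * p.1 - (-1) * p.2 * p.2 ≠ 0} ≃ {p : F × F // p ≠ 0} := by
    refine Equiv.subtypeEquivRight ?_
    rintro ⟨a, b⟩
    rw [not_iff_not]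
    constructor
    · intro h
      simp only at h
      have hb : b = 0 := by
        by_contra hb
        apply hns
        refine ⟨a / b, ?_⟩
        field_simp
        linear_combination -h
      have ha : a = 0 := by
        rw [hb] at h
        have : a * a = 0 := by linear_combination h
        exact mul_self_eq_zero.1 this
      rw [ha, hb]; rfl
    · intro h
      have h1 : a = 0 := congrArg Prod.fst h
      have h2 : b = 0 := congrArg Prod.snd h
      simp [h1, h2]
  rw [Nat.card_congr e, Nat.card_eq_fintype_card, Fintype.card_subtype_compl, Fintype.card_prod, Fintype.card_subtype_eq]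

theorem exists_base (F : Type*) [Field F] [Fintype F] (hq : Odd (Fintype.card F)) :
    ∃ (δ : F) (hδ : δ * δ = 1) (X : Subgroup (GL (Fin 2) F)), BD δ hδ X ∧
      (Fintype.card F % 8 = 1 ∨ Fintype.card F % 8 = 7 → ∃ α β : F, α * α - δ * β * β = 1 ∧ α * α + δ * β * β = 0) := by
  have hq1 : 1 < Fintype.card F := Fintype.one_lt_card
  have h2 : (2 : F) ≠ 0 := by
    intro h
    have h3 : (ringChar F) ∣ 2 := by
      rw [← ringChar.spec]
      exact_mod_cast h
    obtain ⟨n, hp, hn⟩ := FiniteField.card F (ringChar F)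
    have h4 : ringChar F = 2 := (Nat.prime_dvd_prime_iff_eq hp Nat.prime_two).1 h3
    rw [hn, h4] at hq
    have : Even (2 ^ (n : ℕ)) := (even_two).pow_of_ne_zero n.ne_zero
    exact (Nat.not_even_iff_odd.2 hq) this
  have hcg : cg (Fintype.card F) 2 = (Fintype.card F ^ 2 - 1) * (Fintype.card F ^ 2 - Fintype.card F) := by
    unfold cg
    rw [Fin.prod_univ_two]
    simp
  have hcardG : Nat.card (GL (Fin 2) F) = cg (Fintype.card F) 2 := by
    rw [card_GL_index, Fintype.card_fin]
  have h4 : Fintype.card F % 4 = 1 ∨ Fintype.card F % 4 = 3 := by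
    obtain ⟨k, hk⟩ := hq
    omega
  rcases h4 with h4 | h4
  · have hsq : IsSquare (-1 : F) := by
      rw [FiniteField.isSquare_neg_one_iff]; omega
    obtain ⟨ζ, hζ⟩ := hsq
    have hδ : (1 : F) * 1 = 1 := one_mul 1
    have hodd : ¬ 2 ∣ (NN (1 : F) hδ).index := by
      have e1 := Subgroup.card_mul_index (NN (1 : F) hδ)
      rw [card_NN _ _ h2, card_EE_one F h2, hcardG, hcg] at e1
      obtain ⟨m, hm⟩ : ∃ m, Fintype.card F = 4 * m + 1 := ⟨Fintype.card F / 4, by omega⟩
      have hm0 : 0 < m := by omega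
      rw [hm] at e1
      rintro ⟨j, hj⟩
      rw [hj] at e1
      have e2 : (4 * m + 1) ^ 2 - 1 = 4 * m * (4 * m + 2) := by
        have : (4 * m + 1) ^ 2 = 4 * m * (4 * m + 2) + 1 := by ring
        omega
      have e3 : (4 * m + 1) ^ 2 - (4 * m + 1) = 4 * m * (4 * m + 1) := by
        have : (4 * m + 1) ^ 2 = 4 * m * (4 * m + 1) + (4 * m + 1) := by ring
        omega
      rw [e2, e3, show 4 * m + 1 - 1 = 4 * m by omega] at e1
      have e4 : (32 * m * m) * (2 * j) = (32 * m * m) * ((2 * m + 1) * (4 * m + 1)) := by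
        calc (32 * m * m) * (2 * j) = 2 * (4 * m * (4 * m)) * (2 * j) := by ring
          _ = 4 * m * (4 * m + 2) * (4 * m * (4 * m + 1)) := e1
          _ = _ := by ring
      have e5 := Nat.eq_of_mul_eq_mul_left (by positivity) e4
      have e6 : (2 * m + 1) * (4 * m + 1) = 2 * (4 * m * m + 3 * m) + 1 := by ring
      omega
    obtain ⟨X, hX⟩ := base hδ h2 (s := ζ) hζ.symm (ea := 0) (eb := 1) (by ring) (α := (1 + ζ) / 2) (β := (1 - ζ) / 2) (by
        field_simp
        linear_combination (-2) * hζ) (by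
        field_simp
        linear_combination (-(ζ * ζ) + 3) * hζ) hodd
    refine ⟨1, hδ, X, hX, ?_⟩
    intro h8
    have h8' : Fintype.card F % 8 = 1 := by omega
    obtain ⟨r, hr⟩ : IsSquare (2 : F) := by rw [FiniteField.isSquare_two_iff]; omega
    obtain ⟨t, ht⟩ : IsSquare (-2 : F) := by rw [FiniteField.isSquare_neg_two_iff]; omega
    have hr0 : r ≠ 0 := by rintro rfl; apply h2; rw [hr]; ring
    have ht0 : t ≠ 0 := by rintro rfl; apply h2; linear_combination -ht
    refine ⟨1 / r, 1 / t, ?_, ?_⟩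
    · field_simp
      linear_combination (-1) * hr + (r ^ 2 - 1) * ht
    · field_simp
      linear_combination -hr - ht
  · have hδ : (-1 : F) * (-1) = 1 := by ring
    have hodd : ¬ 2 ∣ (NN (-1 : F) hδ).index := by
      have e1 := Subgroup.card_mul_index (NN (-1 : F) hδ)
      rw [card_NN _ _ h2, card_EE_neg F h4, hcardG, hcg] at e1
      obtain ⟨m, hm⟩ : ∃ m, Fintype.card F = 4 * m + 3 := ⟨Fintype.card F / 4, by omega⟩
      rw [hm] at e1
      rintro ⟨j, hj⟩
      rw [hj] at e1
      have e2 : (4 * m + 3) ^ 2 - 1 = (4 * m + 2) * (4 * m + 4) := by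
        have : (4 * m + 3) ^ 2 = (4 * m + 2) * (4 * m + 4) + 1 := by ring
        omega
      have e2' : (4 * m + 3) * (4 * m + 3) - 1 = (4 * m + 2) * (4 * m + 4) := by
        have : (4 * m + 3) * (4 * m + 3) = (4 * m + 2) * (4 * m + 4) + 1 := by ring
        omega
      have e3 : (4 * m + 3) ^ 2 - (4 * m + 3) = (4 * m + 2) * (4 * m + 3) := by
        have : (4 * m + 3) ^ 2 = (4 * m + 2) * (4 * m + 3) + (4 * m + 3) := by ring
        omega
      rw [e2, e2', e3] at e1
      have e4 : (2 * ((4 * m + 2) * (4 * m + 4))) * (2 * j) = (2 * ((4 * m + 2) * (4 * m + 4))) * ((2 * m + 1) * (4 * m + 3)) := by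
        calc _ = (4 * m + 2) * (4 * m + 4) * ((4 * m + 2) * (4 * m + 3)) := e1
          _ = _ := by ring
      have e5 := Nat.eq_of_mul_eq_mul_left (by positivity) e4
      have e6 : (2 * m + 1) * (4 * m + 3) = 2 * (4 * m * m + 5 * m + 1) + 1 := by ring
      omega
    obtain ⟨x, y, hxy⟩ := sq_sum F hq
    obtain ⟨α, hα⟩ : ∃ α : F, (2 * α * α) ^ 2 = 1 := by
      have h8 : Fintype.card F % 8 = 3 ∨ Fintype.card F % 8 = 7 := by omega
      rcases h8 with h8 | h8
      · obtain ⟨t, ht⟩ : IsSquare (-2 : F) := by rw [FiniteField.isSquare_neg_two_iff]; omega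
        have ht0 : t ≠ 0 := by rintro rfl; apply h2; linear_combination -ht
        refine ⟨1 / t, ?_⟩
        field_simp
        linear_combination (t * t - 2) * ht
      · obtain ⟨r, hr⟩ : IsSquare (2 : F) := by rw [FiniteField.isSquare_two_iff]; omega
        have hr0 : r ≠ 0 := by rintro rfl; apply h2; rw [hr]; ring
        refine ⟨1 / r, ?_⟩
        field_simp
        linear_combination (2 + r * r) * hr
    obtain ⟨X, hX⟩ := base hδ h2 (s := 1) (by ring) (ea := x) (eb := y) (by linear_combination hxy) (α := α) (β := α) (by ring) hα hodd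
    refine ⟨-1, hδ, X, hX, ?_⟩
    intro h8
    obtain ⟨r, hr⟩ : IsSquare (2 : F) := by rw [FiniteField.isSquare_two_iff]; omega
    have hr0 : r ≠ 0 := by rintro rfl; apply h2; rw [hr]; ring
    refine ⟨1 / r, 1 / r, ?_, ?_⟩
    · field_simp
      linear_combination hr
    · field_simp
      ring

end CfsgLib.Pm
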