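import Mathlib
import Cfsg.Agent.LibHomg3H13
import Cfsg.Agent.LibFlg6H13
import Cfsg.Agent.LibCycH13
import Cfsg.Agent.LibLEZsig

set_option autoImplicit false

open Module Polynomial

namespace CfsgLib.Psu

/-! ### arithmetic -/

theorem exists_s (q : ℕ) (hq : 1 ≤ q) (k : ℕ) : ∃ s : ℕ, q ^ (2 * k) = (q + 1) * s + 1 ∧ (q + 1) ∣ s + 2 * k := by
  obtain ⟨u, rfl⟩ : ∃ u, q = u + 1 := ⟨q - 1, by omega⟩
  induction k with
  | zero => exact ⟨0, by simp, by simp⟩
  | succ k ih =>
    obtain ⟨s, hs, hd⟩ := ih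
    refine ⟨(u + 1) ^ 2 * s + u, ?_, ?_⟩
    · rw [show 2 * (k + 1) = 2 * k + 2 by ring, pow_add, hs]; ring
    · have h1 : (u + 1) ^ 2 * s + u + 2 * (k + 1) = (u + 1 + 1) * (u * s) + (s + 2 * k) + (u + 1 + 1) := by ring
      rw [h1]
      exact dvd_add (dvd_add (Dvd.intro _ rfl) hd) dvd_rfl

theorem core {m Q : ℕ} (hm : 1 ≤ m) (hQ : 1 ≤ Q) : Nat.gcd (2 * m) Q ∣ m ↔ padicValNat 2 Q < padicValNat 2 (2 * m) := by
  haveI : Fact (Nat.Prime 2) := ⟨Nat.prime_two⟩
  have hv : padicValNat 2 (2 * m) = padicValNat 2 m + 1 := by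
    rw [padicValNat.mul (by norm_num) (by omega), padicValNat.self (by norm_num), add_comm]
  constructor
  · intro h
    by_contra hcon
    push Not at hcon
    have h2 : 2 ^ padicValNat 2 (2 * m) ∣ Nat.gcd (2 * m) Q :=
      Nat.dvd_gcd pow_padicValNat_dvd ((pow_dvd_pow 2 hcon).trans pow_padicValNat_dvd)
    have h3 := (padicValNat_dvd_iff_le (by omega)).mp (h2.trans h)
    omega
  · intro h
    have hne : Nat.gcd (2 * m) Q ≠ 0 := (Nat.gcd_pos_of_pos_left _ (by omega)).ne'
    rw [← Nat.factorization_prime_le_iff_dvd hne (by omega)]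
    intro p hp
    by_cases hp2 : p = 2
    · subst hp2
      have h2 : (Nat.gcd (2 * m) Q).factorization 2 ≤ Q.factorization 2 :=
        (Nat.factorization_le_iff_dvd hne (by omega)).mpr (Nat.gcd_dvd_right _ _) 2
      rw [Nat.factorization_def _ Nat.prime_two] at h2 ⊢
      rw [Nat.factorization_def _ Nat.prime_two] at h2 ⊢
      omega
    · have h2 : (Nat.gcd (2 * m) Q).factorization p ≤ (2 * m).factorization p :=
        (Nat.factorization_le_iff_dvd hne (by omega)).mpr (Nat.gcd_dvd_left _ _) p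
      rw [Nat.factorization_mul (by norm_num) (by omega), Finsupp.add_apply] at h2
      have h3 : Nat.factorization 2 p = 0 := Nat.factorization_eq_zero_of_not_dvd (fun h4 => hp2 ((Nat.prime_dvd_prime_iff_eq hp Nat.prime_two).mp h4))
      omega

theorem arith {q m : ℕ} (hq : 2 ≤ q) (hm : 1 ≤ m) :
    ((if Even m then q ^ m + 1 else q ^ m - 1) ∣ ((q ^ (2 * m) - 1) / (q + 1)) / Nat.gcd ((q ^ (2 * m) - 1) / (q + 1)) (q + 1)) ↔
      padicValNat 2 (q + 1) < padicValNat 2 (2 * m) := by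
  obtain ⟨s, hs, hsd⟩ := exists_s q (by omega) m
  have hM : (q ^ (2 * m) - 1) / (q + 1) = s := by
    rw [hs, Nat.add_sub_cancel, Nat.mul_div_cancel_left _ (Nat.succ_pos _)]
  rw [hM]
  have hg : Nat.gcd s (q + 1) = Nat.gcd (2 * m) (q + 1) := by
    apply Nat.dvd_antisymm
    · refine Nat.dvd_gcd ?_ (Nat.gcd_dvd_right _ _)
      exact (Nat.dvd_add_right (Nat.gcd_dvd_left s (q + 1))).mp ((Nat.gcd_dvd_right s (q + 1)).trans hsd)
    · refine Nat.dvd_gcd ?_ (Nat.gcd_dvd_right _ _)
      exact (Nat.dvd_add_left (Nat.gcd_dvd_left (2 * m) (q + 1))).mp ((Nat.gcd_dvd_right (2 * m) (q + 1)).trans hsd)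
  rw [hg, ← core hm (Nat.succ_pos q)]
  set D := Nat.gcd (2 * m) (q + 1) with hD
  have hDs : D ∣ s := hg ▸ Nat.gcd_dvd_left s (q + 1)
  have hDq : D ∣ q + 1 := Nat.gcd_dvd_right _ _
  rw [Nat.dvd_div_iff_mul_dvd hDs]
  have hqm : 1 < q ^ m := Nat.one_lt_pow (by omega) hq
  have hfac : q ^ (2 * m) - 1 = (q ^ m + 1) * (q ^ m - 1) := by
    have h2 := Nat.sq_sub_sq (q ^ m) 1
    rw [one_pow, ← pow_mul, mul_comm m 2] at h2
    exact h2
  have hs2 : (q + 1) * s = (q ^ m + 1) * (q ^ m - 1) := by rw [← hfac, hs, Nat.add_sub_cancel]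
  by_cases he : Even m
  · rw [if_pos he]
    obtain ⟨k, hk⟩ := he
    obtain ⟨t, ht, htd⟩ := exists_s q (by omega) k
    rw [← two_mul] at hk
    rw [← hk] at ht htd
    have h1 : s = (q ^ m + 1) * t := by
      apply Nat.eq_of_mul_eq_mul_left (Nat.succ_pos q)
      show (q + 1) * s = (q + 1) * _
      rw [hs2, ht, Nat.add_sub_cancel]; ring
    rw [h1, mul_comm D, Nat.mul_dvd_mul_iff_left (Nat.succ_pos _)]
    constructor
    · intro h; exact (Nat.dvd_add_right h).mp (hDq.trans htd)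
    · intro h; exact (Nat.dvd_add_left h).mp (hDq.trans htd)
  · rw [if_neg he]
    rw [Nat.not_even_iff_odd] at he
    obtain ⟨k, hk⟩ := he
    obtain ⟨t, ht, htd⟩ := exists_s q (by omega) k
    have h0 : q ^ m + 1 = (q + 1) * (q * t + 1) := by
      rw [hk, pow_succ, ht]; ring
    have h1 : s = (q ^ m - 1) * (q * t + 1) := by
      apply Nat.eq_of_mul_eq_mul_left (Nat.succ_pos q)
      show (q + 1) * s = (q + 1) * _
      rw [hs2, h0]; ring
    rw [h1, mul_comm D, Nat.mul_dvd_mul_iff_left (by omega)]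
    have h3 : (q * t + 1) + (t + 2 * k) = (q + 1) * t + m := by rw [hk]; ring
    have h4 : D ∣ t + 2 * k := hDq.trans htd
    have h5 : D ∣ (q + 1) * t := hDq.mul_right t
    constructor
    · intro h
      have h6 := dvd_add h h4
      rw [h3] at h6
      exact (Nat.dvd_add_right h5).mp h6
    · intro h
      have h6 := dvd_add h5 h
      rw [← h3] at h6
      exact (Nat.dvd_add_left h4).mp h6

/-- the primitive prime -/
theorem zsig {q m : ℕ} (hq : 1 < q) (hodd : Odd q) (hm : 2 ≤ m) :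
    ∃ r : ℕ, r.Prime ∧ r ∣ (if Even m then q ^ m + 1 else q ^ m - 1) ∧ ¬ r ∣ q ∧ orderOf ((q ^ 2 : ℕ) : ZMod r) = m ∧
      ∀ j, ¬ r ∣ q * (q ^ 2) ^ j + 1 := by
  have hiff : ∀ r k, r ∣ q ^ k - 1 ↔ orderOf (q : ZMod r) ∣ k := by
    intro r k
    rw [orderOf_dvd_iff_pow_eq_one, ← ZMod.natCast_eq_zero_iff, Nat.cast_sub (Nat.one_le_pow _ _ (by omega)), Nat.cast_pow, Nat.cast_one, sub_eq_zero]
  have hjj : ∀ r j, r ∣ q * (q ^ 2) ^ j + 1 → (q : ZMod r) ^ (2 * j + 1) = -1 := by
    intro r j h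
    rw [← ZMod.natCast_eq_zero_iff] at h
    push_cast at h
    rw [eq_neg_iff_add_eq_zero, ← h]; ring
  have hjj2 : ∀ r j, r ∣ q * (q ^ 2) ^ j + 1 → orderOf (q : ZMod r) ∣ 2 * (2 * j + 1) := by
    intro r j h
    rw [orderOf_dvd_iff_pow_eq_one, mul_comm, pow_mul, hjj r j h]; ring
  have hord : ∀ r n, r ∣ q ^ n - 1 → 0 < n → (∀ k, 0 < k → k < n → ¬ r ∣ q ^ k - 1) → orderOf (q : ZMod r) = n := by
    intro r n hrd hn hrk
    have h1 := (hiff r _).mp hrd
    have h2 : orderOf (q : ZMod r) ≤ n := Nat.le_of_dvd hn h1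
    have h3 : 0 < orderOf (q : ZMod r) := Nat.pos_of_dvd_of_pos h1 hn
    by_contra h4
    exact hrk _ h3 (by omega) ((hiff r _).mpr dvd_rfl)
  by_cases he : Even m
  · obtain ⟨r, hr, hrd, hrk⟩ := CfsgLib.LEZsig.zsigmondy_gt_two (a := q) (n := 2 * m) hq (by omega) (by
      rintro ⟨h, -⟩
      rw [h] at hodd
      exact absurd hodd (by decide))
    haveI : Fact r.Prime := ⟨hr⟩
    have ho := hord r (2 * m) hrd (by omega) (fun k h1 h2 => hrk k h1 h2)
    have hrm : ¬ r ∣ q ^ m - 1 := hrk m (by omega) (by omega)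
    have hfac : q ^ (2 * m) - 1 = (q ^ m + 1) * (q ^ m - 1) := by
      have h2 := Nat.sq_sub_sq (q ^ m) 1
      rw [one_pow, ← pow_mul, mul_comm m 2] at h2
      exact h2
    have hrN : r ∣ q ^ m + 1 := by
      rw [hfac, hr.dvd_mul] at hrd
      exact hrd.resolve_right hrm
    refine ⟨r, hr, ?_, ?_, ?_, ?_⟩
    · rw [if_pos he]; exact hrN
    · intro h
      have h1 : r ∣ q ^ m := h.trans (dvd_pow_self q (by omega))
      have h2 := (Nat.dvd_add_right h1).mp hrN
      exact hr.one_lt.ne' (Nat.dvd_one.mp h2)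
    · rw [Nat.cast_pow, orderOf_pow' _ (by norm_num), ho, Nat.gcd_mul_right_left, Nat.mul_div_cancel_left _ (by norm_num)]
    · intro j hj
      have h1 := hjj2 r j hj
      rw [ho] at h1
      have h2 : m ∣ 2 * j + 1 := Nat.dvd_of_mul_dvd_mul_left (by norm_num) h1
      obtain ⟨c, hc⟩ := he.two_dvd.trans h2
      omega
  · rw [Nat.not_even_iff_odd] at he
    have hm3 : 2 < m := by
      obtain ⟨c, hc⟩ := he
      omega
    obtain ⟨r, hr, hrd, hrk⟩ := CfsgLib.LEZsig.zsigmondy_gt_two (a := q) (n := m) hq (by omega) (by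
      rintro ⟨h, -⟩
      rw [h] at hodd
      exact absurd hodd (by decide))
    haveI : Fact r.Prime := ⟨hr⟩
    have ho := hord r m hrd (by omega) (fun k h1 h2 => hrk k h1 h2)
    refine ⟨r, hr, ?_, ?_, ?_, ?_⟩
    · rw [if_neg (by rw [Nat.not_even_iff_odd]; exact he)]; exact hrd
    · intro h
      have h1 : r ∣ q ^ m := h.trans (dvd_pow_self q (by omega))
      have h2 : r ∣ 1 := (Nat.dvd_sub_iff_right (Nat.one_le_pow _ _ (by omega)) h1).mp hrd
      exact hr.one_lt.ne' (Nat.dvd_one.mp h2)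
    · rw [Nat.cast_pow, orderOf_pow' _ (by norm_num), ho, (Nat.coprime_two_right.mpr he).gcd_eq_one, Nat.div_one]
    · intro j hj
      have h1 := hjj2 r j hj
      rw [ho] at h1
      have h2 : m ∣ 2 * j + 1 := (Nat.coprime_two_right.mpr he).dvd_of_dvd_mul_left h1
      have h3 : (q : ZMod r) ^ (2 * j + 1) = 1 := by
        rw [← orderOf_dvd_iff_pow_eq_one, ho]; exact h2
      rw [hjj r j hj] at h3
      have h4 : ((2 : ℕ) : ZMod r) = 0 := by
        have : (1 : ZMod r) + 1 = 0 := by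
          nth_rewrite 1 [← h3]; ring
        push_cast
        rw [← this]; norm_num
      rw [ZMod.natCast_eq_zero_iff] at h4
      have h5 : r = 2 := (Nat.prime_dvd_prime_iff_eq hr Nat.prime_two).mp h4
      apply hrk 1 (by omega) (by omega)
      rw [h5, pow_one]
      obtain ⟨c, hc⟩ := hodd
      exact ⟨c, by omega⟩

/-! ### the form -/

section form

variable {F : Type*} [Field F] {n : ℕ}

/-- the standard hermitian form -/
def BB (σ : F →+* F) (x y : Fin n → F) : F := x ⬝ᵥ (fun i => σ (y i))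

theorem BB_add_left (σ : F →+* F) (x x' y : Fin n → F) : BB σ (x + x') y = BB σ x y + BB σ x' y := add_dotProduct _ _ _

theorem BB_smul_left (σ : F →+* F) (c : F) (x y : Fin n → F) : BB σ (c • x) y = c * BB σ x y := smul_dotProduct _ _ _

theorem BB_add_right (σ : F →+* F) (x y y' : Fin n → F) : BB σ x (y + y') = BB σ x y + BB σ x y' := by
  unfold BB
  rw [← dotProduct_add]
  congr 1
  funext i
  exact map_add σ _ _

theorem BB_smul_right (σ : F →+* F) (c : F) (x y : Fin n → F) : BB σ x (c • y) = σ c * BB σ x y := by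
  unfold BB
  rw [← smul_eq_mul, ← dotProduct_smul]
  congr 1
  funext i
  exact map_mul σ _ _

theorem BB_zero_right (σ : F →+* F) (x : Fin n → F) : BB σ x 0 = 0 := by
  have h := BB_smul_right σ 0 x 0
  rwa [zero_smul, map_zero, zero_mul] at h

theorem BB_mulVec (σ : F →+* F) (A : Matrix (Fin n) (Fin n) F) (hA : A.transpose * A.map σ = 1) (x y : Fin n → F) :
    BB σ (A.mulVec x) (A.mulVec y) = BB σ x y := by
  unfold BB
  have h1 : (fun i => σ (A.mulVec y i)) = (A.map σ).mulVec (fun i => σ (y i)) := by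
    funext i
    show σ (∑ j, A i j * y j) = ∑ j, A.map σ i j * σ (y j)
    rw [map_sum]
    exact Finset.sum_congr rfl (fun j _ => by rw [map_mul]; rfl)
  rw [h1, Matrix.dotProduct_mulVec, ← Matrix.vecMul_transpose, Matrix.vecMul_vecMul, hA, Matrix.vecMul_one]

theorem adj (σ : F →+* F) (T : End F (Fin n → F)) (hT : ∀ x y, BB σ (T x) (T y) = BB σ x y) {r : ℕ} (hr : 1 ≤ r) (hTr : T ^ r = 1)
    (f : F[X]) : ∀ x y, BB σ (aeval (T ^ (r - 1)) (f.map σ) x) y = BB σ x (aeval T f y) := by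
  have hTn : ∀ k x y, BB σ ((T ^ k) x) ((T ^ k) y) = BB σ x y := by
    intro k
    induction k with
    | zero => intro x y; rfl
    | succ k ih => intro x y; rw [pow_succ, Module.End.mul_apply, Module.End.mul_apply, ih, hT]
  induction f using Polynomial.induction_on' with
  | add p q hp hq =>
    intro x y
    rw [Polynomial.map_add, map_add, map_add, LinearMap.add_apply, LinearMap.add_apply, BB_add_left, BB_add_right, hp, hq]
  | monomial k a =>
    intro x y
    rw [Polynomial.map_monomial, aeval_monomial, aeval_monomial, Module.End.mul_apply, Module.End.mul_apply, Module.algebraMap_end_apply,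
      Module.algebraMap_end_apply, BB_smul_left, BB_smul_right]
    congr 1
    rw [← hTn k, ← Module.End.mul_apply, ← pow_mul, ← pow_add]
    have : k + (r - 1) * k = r * k := by
      obtain ⟨u, rfl⟩ : ∃ u, r = u + 1 := ⟨r - 1, by omega⟩
      rw [Nat.add_sub_cancel]; ring
    rw [this, pow_mul, hTr, one_pow, Module.End.one_apply]

theorem isotropic [Fintype F] {p : ℕ} [Fact p.Prime] [CharP F p] (a : ℕ) (T : End F (Fin n → F))
    (hT : ∀ x y, BB (iterateFrobenius F p a) (T x) (T y) = BB (iterateFrobenius F p a) x y) {r : ℕ} (hr : r.Prime) (hTr : T ^ r = 1)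
    {f : F[X]} (hf : Irreducible f) (hU0 : 0 < finrank F (LinearMap.ker (aeval T f)))
    (hU1 : LinearMap.ker (aeval T f) ⊓ LinearMap.ker (T - 1) = ⊥) (hj : ∀ j, ¬ r ∣ p ^ a * Fintype.card F ^ j + 1) :
    ∀ x ∈ LinearMap.ker (aeval T f), ∀ y ∈ LinearMap.ker (aeval T f), BB (iterateFrobenius F p a) x y = 0 := by
  classical
  set σ := iterateFrobenius F p a with hσ
  set U := LinearMap.ker (aeval T f) with hU
  have hTU : ∀ g : F[X], ∀ x ∈ U, aeval T g x ∈ U := by
    intro g x hx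
    rw [hU, LinearMap.mem_ker] at hx ⊢
    rw [← Module.End.mul_apply, ← map_mul, mul_comm, map_mul, Module.End.mul_apply, hx, map_zero]
  have hTU1 : ∀ x ∈ U, T x ∈ U := by
    intro x hx
    have := hTU X x hx
    rwa [aeval_X] at this
  have hcomp : ∀ x, aeval (T ^ (r - 1)) (f.map σ) x = aeval T ((f.map σ).comp (X ^ (r - 1))) x := by
    intro x
    rw [aeval_comp, map_pow, aeval_X]
  by_cases hc : f ∣ ((f.map σ).comp (X ^ (r - 1)))
  swap
  · obtain ⟨u, v, huv⟩ := hf.coprime_iff_not_dvd.mpr hc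
    intro x hx y hy
    have h1 : x = aeval T ((f.map σ).comp (X ^ (r - 1))) (aeval T v x) := by
      have h2 : aeval T (u * f + v * ((f.map σ).comp (X ^ (r - 1)))) x = x := by rw [huv, map_one]; rfl
      rw [map_add, LinearMap.add_apply, map_mul, Module.End.mul_apply, LinearMap.mem_ker.mp hx, map_zero, zero_add, mul_comm v, map_mul, Module.End.mul_apply] at h2
      exact h2.symm
    rw [h1, ← hcomp, adj σ T hT hr.one_lt.le hTr, LinearMap.mem_ker.mp hy, BB_zero_right]
  · exfalso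
    obtain ⟨u, hu⟩ := hc
    obtain ⟨j, hjx⟩ := CfsgLib.Homg.dual2 a T (M := r) hr.one_lt.le hTr U hTU1 hU0 hf (fun x hx => hx) (by
      intro x hx
      rw [hcomp, hu, mul_comm, map_mul, Module.End.mul_apply, LinearMap.mem_ker.mp hx, map_zero])
    apply hj j
    by_contra hnd
    have hcop : Nat.Coprime r (p ^ a * Fintype.card F ^ j + 1) := (Nat.Prime.coprime_iff_not_dvd hr).mpr hnd
    have hUb : U = ⊥ := by
      rw [eq_bot_iff, ← hU1]
      intro x hx
      refine ⟨hx, ?_⟩
      show x ∈ LinearMap.ker (T - 1)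
      rw [LinearMap.mem_ker, LinearMap.sub_apply, Module.End.one_apply, sub_eq_zero]
      -- periodicity
      have h1 : Function.IsPeriodicPt T r x := by
        show T^[r] x = x
        rw [← Module.End.pow_apply, hTr]; rfl
      have h2 : Function.IsPeriodicPt T (p ^ a * Fintype.card F ^ j + 1) x := by
        show T^[_] x = x
        rw [← Module.End.pow_apply]; exact hjx x hx
      have h3 := h1.gcd h2
      rw [hcop.gcd_eq_one] at h3
      exact h3
    rw [hUb, finrank_bot] at hU0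
    exact lt_irrefl _ hU0

/-- an element preserving a totally isotropic subspace of half dimension -/
theorem block {m : ℕ} (σ : F →+* F) (U : Submodule F (Fin (m + m) → F)) (hU : finrank F U = m) (hiso : ∀ x ∈ U, ∀ y ∈ U, BB σ x y = 0)
    (A : Matrix (Fin (m + m)) (Fin (m + m)) F) (hA : A.transpose * A.map σ = 1) (hdet : A.det = 1)
    (hAU : ∀ x ∈ U, Matrix.toLin' A x ∈ U) :
    σ (LinearMap.det ((Matrix.toLin' A).restrict hAU)) = LinearMap.det ((Matrix.toLin' A).restrict hAU) ∧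
    ∀ c : F, c * σ c = 1 → (∀ x ∈ U, Matrix.toLin' A x = c • x) → (A - Matrix.scalar (Fin (m + m)) c) ^ 2 = 0 := by
  classical
  have hV : finrank F (Fin (m + m) → F) = m + m := Module.finrank_fin_fun F
  have hQ : finrank F ((Fin (m + m) → F) ⧸ U) = m := by
    have := Submodule.finrank_quotient_add_finrank U
    omega
  let b1 : Basis (Fin m) F U := Module.finBasisOfFinrankEq F U hU
  let b2 : Basis (Fin m) F ((Fin (m + m) → F) ⧸ U) := Module.finBasisOfFinrankEq F _ hQ
  let b : Basis (Fin m ⊕ Fin m) F (Fin (m + m) → F) := Module.Basis.sumQuot b1 b2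
  have hb1 : ∀ i, b (Sum.inl i) = b1 i := fun i => Module.Basis.sumQuot_inl b1 b2 i
  set S := Matrix.toLin' A with hS
  set a : Matrix (Fin m) (Fin m) F := LinearMap.toMatrix b1 b1 (S.restrict hAU) with ha
  have hda : a.det = LinearMap.det (S.restrict hAU) := LinearMap.det_toMatrix b1 _
  set A' : Matrix (Fin m ⊕ Fin m) (Fin m ⊕ Fin m) F := LinearMap.toMatrix b b S with hA'
  have h11 : A'.toBlocks₁₁ = a := by
    ext i j
    show A' (Sum.inl i) (Sum.inl j) = a i j
    rw [hA', LinearMap.toMatrix_apply, hb1, ha, LinearMap.toMatrix_apply]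
    exact Module.Basis.sumQuot_repr_inl_of_mem b1 b2 _ (hAU _ (b1 j).2) i
  have h21 : A'.toBlocks₂₁ = 0 := by
    ext i j
    show A' (Sum.inr i) (Sum.inl j) = 0
    rw [hA', LinearMap.toMatrix_apply, hb1]
    have h1 : b.repr (S (b1 j)) (Sum.inr i) = b2.repr (U.mkQ (S (b1 j))) i := Module.Basis.sumQuot_repr_inr b1 b2 _ i
    have h2 : U.mkQ (S (b1 j)) = 0 := by
      rw [← LinearMap.mem_ker, Submodule.ker_mkQ]
      exact hAU _ (b1 j).2
    rw [h1, h2, map_zero]; rfl
  obtain ⟨B, hB⟩ : ∃ B, B = A'.toBlocks₁₂ := ⟨_, rfl⟩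
  obtain ⟨D, hD⟩ : ∃ D, D = A'.toBlocks₂₂ := ⟨_, rfl⟩
  have hAb : A' = Matrix.fromBlocks a B 0 D := by
    rw [← h11, hB, ← h21, hD, Matrix.fromBlocks_toBlocks]
  let P : Matrix (Fin (m + m)) (Fin m ⊕ Fin m) F := (Pi.basisFun F (Fin (m + m))).toMatrix b
  let Q : Matrix (Fin m ⊕ Fin m) (Fin (m + m)) F := b.toMatrix (Pi.basisFun F (Fin (m + m)))
  have hPQ : P * Q = 1 := Module.Basis.toMatrix_mul_toMatrix_flip _ _
  have hQP : Q * P = 1 := Module.Basis.toMatrix_mul_toMatrix_flip _ _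
  have hPA : A * P = P * A' := by
    have h1 := linearMap_toMatrix_mul_basis_toMatrix b (Pi.basisFun F (Fin (m + m))) (Pi.basisFun F (Fin (m + m))) S
    have h2 := basis_toMatrix_mul_linearMap_toMatrix b (Pi.basisFun F (Fin (m + m))) b S
    have h3 : LinearMap.toMatrix (Pi.basisFun F (Fin (m + m))) (Pi.basisFun F (Fin (m + m))) S = A := by
      rw [hS]
      exact LinearMap.toMatrix'_toLin' A
    rw [h3] at h1
    exact h1.trans h2.symm
  let J : Matrix (Fin m ⊕ Fin m) (Fin m ⊕ Fin m) F := P.transpose * P.map σ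
  have hJ : A'.transpose * J * A'.map σ = J := by
    have h1 : A'.transpose * J * A'.map σ = (P * A').transpose * (P * A').map σ := by
      rw [Matrix.transpose_mul, Matrix.map_mul]
      show A'.transpose * (P.transpose * P.map σ) * A'.map σ = _
      simp only [Matrix.mul_assoc]
    rw [h1, ← hPA, Matrix.transpose_mul, Matrix.map_mul, Matrix.mul_assoc, ← Matrix.mul_assoc A.transpose, hA, Matrix.one_mul]
  have hJK : J * (Q.map σ * Q.transpose) = 1 := by
    show P.transpose * P.map σ * (Q.map σ * Q.transpose) = 1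
    rw [Matrix.mul_assoc, ← Matrix.mul_assoc (P.map σ), ← Matrix.map_mul, hPQ, Matrix.map_one _ (map_zero σ) (map_one σ), Matrix.one_mul,
      ← Matrix.transpose_mul, hQP, Matrix.transpose_one]
  have hJ11 : J.toBlocks₁₁ = 0 := by
    ext i j
    show J (Sum.inl i) (Sum.inl j) = 0
    have h1 := hiso _ (b1 i).2 _ (b1 j).2
    rw [← hb1, ← hb1] at h1
    rw [← h1]
    rfl
  obtain ⟨X, hX⟩ : ∃ X, X = J.toBlocks₁₂ := ⟨_, rfl⟩
  obtain ⟨Z, hZ⟩ : ∃ Z, Z = J.toBlocks₂₁ := ⟨_, rfl⟩
  obtain ⟨Y, hY⟩ : ∃ Y, Y = J.toBlocks₂₂ := ⟨_, rfl⟩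
  have hJb : J = Matrix.fromBlocks 0 X Z Y := by
    rw [← hJ11, hX, hZ, hY, Matrix.fromBlocks_toBlocks]
  have hXdet : X.det ≠ 0 := by
    intro h0
    obtain ⟨v, hv, hvX⟩ := Matrix.exists_vecMul_eq_zero_iff.mpr h0
    have h1 : Matrix.vecMul (Sum.elim v 0) J = 0 := by
      rw [hJb, Matrix.vecMul_fromBlocks]
      have e1 : (Sum.elim v (0 : Fin m → F)) ∘ Sum.inl = v := rfl
      have e2 : (Sum.elim v (0 : Fin m → F)) ∘ Sum.inr = 0 := rfl
      rw [e1, e2, Matrix.vecMul_zero, Matrix.zero_vecMul, Matrix.zero_vecMul, hvX, add_zero]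
      ext i
      cases i <;> rfl
    have h2 : (Sum.elim v 0 : Fin m ⊕ Fin m → F) = 0 := by
      have h3 := Matrix.vecMul_one (Sum.elim v 0 : Fin m ⊕ Fin m → F)
      rw [← hJK, ← Matrix.vecMul_vecMul, h1, Matrix.zero_vecMul] at h3
      exact h3.symm
    apply hv
    funext i
    exact congrFun h2 (Sum.inl i)
  have hrel : a.transpose * X * D.map σ = X := by
    have h1 := hJ
    rw [hAb, hJb, Matrix.fromBlocks_transpose, Matrix.fromBlocks_map, Matrix.fromBlocks_multiply, Matrix.fromBlocks_multiply] at h1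
    have h2 := congrArg Matrix.toBlocks₁₂ h1
    rw [Matrix.toBlocks_fromBlocks₁₂, Matrix.toBlocks_fromBlocks₁₂] at h2
    simpa using h2
  have hdetA' : A'.det = 1 := by
    rw [hA', LinearMap.det_toMatrix, hS, LinearMap.det_toLin', hdet]
  refine ⟨?_, ?_⟩
  · rw [← hda]
    have h1 := congrArg Matrix.det hrel
    rw [Matrix.det_mul, Matrix.det_mul, Matrix.det_transpose] at h1
    have h2 : (D.map σ).det = σ D.det := (RingHom.map_det σ D).symm
    rw [h2] at h1
    have h3 : a.det * σ D.det = 1 := by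
      apply mul_left_cancel₀ hXdet
      rw [mul_one]
      linear_combination h1
    have h4 : a.det * D.det = 1 := by
      rw [← Matrix.det_fromBlocks_zero₂₁ a B D, ← hAb, hdetA']
    have h5 : D.det ≠ 0 := right_ne_zero_of_mul_eq_one h4
    have h6 : σ D.det = D.det := by
      apply mul_left_cancel₀ (left_ne_zero_of_mul_eq_one h4)
      rw [h3, h4]
    apply mul_right_cancel₀ h5
    rw [h4]
    nth_rewrite 1 [← h6]
    rw [← map_mul, h4, map_one]
  · intro c hc hcU
    have hac : a = Matrix.scalar (Fin m) c := by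
      ext i j
      rw [ha, LinearMap.toMatrix_apply]
      have h1 : (S.restrict hAU) (b1 j) = c • b1 j := Subtype.ext (hcU _ (b1 j).2)
      rw [h1, map_smul, Module.Basis.repr_self, Finsupp.smul_apply, Finsupp.single_apply, Matrix.scalar_apply, Matrix.diagonal_apply, smul_eq_mul]
      by_cases hij : i = j
      · subst hij; simp
      · rw [if_neg (Ne.symm hij), if_neg hij, mul_zero]
    have hc0 : c ≠ 0 := left_ne_zero_of_mul_eq_one hc
    have hDc : D = Matrix.scalar (Fin m) c := by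
      rw [hac] at hrel
      have h1 : (c • D.map σ) = 1 := by
        have h2 : X * (c • D.map σ) = X * 1 := by
          rw [Matrix.mul_one, Matrix.mul_smul]
          rw [Matrix.scalar_apply, Matrix.diagonal_transpose, ← Matrix.smul_one_eq_diagonal, Matrix.smul_mul, Matrix.one_mul, Matrix.smul_mul] at hrel
          exact hrel
        have h3 : IsUnit X.det := isUnit_iff_ne_zero.mpr hXdet
        have h4 := congrArg (fun N => X⁻¹ * N) h2
        simp only [← Matrix.mul_assoc, Matrix.nonsing_inv_mul X h3, Matrix.one_mul] at h4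
        exact h4
      ext i j
      have h2 := congrFun (congrFun h1 i) j
      rw [Matrix.smul_apply, Matrix.map_apply, smul_eq_mul, Matrix.one_apply] at h2
      rw [Matrix.scalar_apply, Matrix.diagonal_apply]
      apply σ.injective
      apply mul_left_cancel₀ hc0
      rw [h2]
      split_ifs with hij
      · exact hc.symm
      · rw [map_zero, mul_zero]
    have h1 : (A' - Matrix.scalar (Fin m ⊕ Fin m) c) ^ 2 = 0 := by
      have h2 : (Matrix.scalar (Fin m ⊕ Fin m) c : Matrix _ _ F) = Matrix.fromBlocks (Matrix.scalar (Fin m) c) 0 0 (Matrix.scalar (Fin m) c) := by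
        rw [Matrix.scalar_apply, Matrix.scalar_apply, Matrix.fromBlocks_diagonal]
        congr 1
        funext i
        cases i <;> rfl
      rw [hAb, h2, hac, hDc, sub_eq_add_neg, Matrix.fromBlocks_neg, Matrix.fromBlocks_add, pow_two, Matrix.fromBlocks_multiply]
      simp
    have h2 : A = P * A' * Q := by
      rw [← hPA, Matrix.mul_assoc, hPQ, Matrix.mul_one]
    have h3 : (Matrix.scalar (Fin (m + m)) c : Matrix _ _ F) = P * (Matrix.scalar (Fin m ⊕ Fin m) c) * Q := by
      rw [Matrix.scalar_apply, Matrix.scalar_apply, ← Matrix.smul_one_eq_diagonal, ← Matrix.smul_one_eq_diagonal, Matrix.mul_smul, Matrix.smul_mul, Matrix.mul_one, hPQ]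
    have h4 : A - Matrix.scalar (Fin (m + m)) c = P * (A' - Matrix.scalar (Fin m ⊕ Fin m) c) * Q := by
      rw [h3]; nth_rewrite 1 [h2]
      rw [Matrix.mul_sub, Matrix.sub_mul]
    rw [h4, pow_two]
    have h5 : P * (A' - Matrix.scalar (Fin m ⊕ Fin m) c) * Q * (P * (A' - Matrix.scalar (Fin m ⊕ Fin m) c) * Q) =
        P * ((A' - Matrix.scalar (Fin m ⊕ Fin m) c) ^ 2) * Q := by
      rw [pow_two]
      calc _ = P * (A' - Matrix.scalar (Fin m ⊕ Fin m) c) * (Q * P) * (A' - Matrix.scalar (Fin m ⊕ Fin m) c) * Q := by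
            simp only [Matrix.mul_assoc]
        _ = _ := by rw [hQP, Matrix.mul_one]; simp only [Matrix.mul_assoc]
    rw [h5, h1, Matrix.mul_zero, Matrix.zero_mul]

end form

end CfsgLib.Psu
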