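import Mathlib
import Cfsg.Agent.EqBase

/-!
# Coherence for integer vectors with Gram matrix `e J + I` (helper17)
-/

set_option autoImplicit false
set_option linter.unusedSectionVars false
set_option linter.style.haveILetI false
set_option linter.unusedSimpArgs false
set_option linter.unusedVariables false

namespace CfsgLib.Qb

/-- vectors of norm two orthogonal to a positive vector -/
theorem norm_two {I : Type*} [Fintype I] [DecidableEq I] (D : I → ℤ) (hD : ∑ i, D i * D i = 2)
    (d : I → ℤ) (hd : ∀ i, 0 < d i) (h0 : ∑ i, D i * d i = 0) :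
    ∃ x y, x ≠ y ∧ ∀ i, D i = (if i = x then 1 else 0) - (if i = y then 1 else 0) := by
  have hpos : ∃ x, 0 < D x := by
    by_contra hcon
    push Not at hcon
    have h1 : ∀ i ∈ Finset.univ, D i * d i = 0 := by
      apply (Finset.sum_eq_zero_iff_of_nonpos (fun i _ => ?_)).1 h0
      exact mul_nonpos_of_nonpos_of_nonneg (hcon i) (hd i).le
    have h2 : ∑ i, D i * D i = 0 := by
      refine Finset.sum_eq_zero fun i hi => ?_
      rcases mul_eq_zero.1 (h1 i hi) with h | h
      · rw [h, zero_mul]
      · exact absurd h (hd i).ne'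
    rw [h2] at hD; norm_num at hD
  have hneg : ∃ y, D y < 0 := by
    by_contra hcon
    push Not at hcon
    have h1 : ∀ i ∈ Finset.univ, D i * d i = 0 := by
      apply (Finset.sum_eq_zero_iff_of_nonneg (fun i _ => ?_)).1 h0
      exact mul_nonneg (hcon i) (hd i).le
    have h2 : ∑ i, D i * D i = 0 := by
      refine Finset.sum_eq_zero fun i hi => ?_
      rcases mul_eq_zero.1 (h1 i hi) with h | h
      · rw [h, zero_mul]
      · exact absurd h (hd i).ne'
    rw [h2] at hD; norm_num at hD
  obtain ⟨x, hx⟩ := hpos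
  obtain ⟨y, hy⟩ := hneg
  have hxy : x ≠ y := by rintro rfl; omega
  have h1 : ∑ i, D i * D i = D x * D x + (D y * D y + ∑ i ∈ (Finset.univ.erase x).erase y, D i * D i) := by
    rw [Finset.add_sum_erase _ (fun i => D i * D i)
      (Finset.mem_erase.2 ⟨hxy.symm, Finset.mem_univ y⟩),
      Finset.add_sum_erase _ (fun i => D i * D i) (Finset.mem_univ x)]
  have h2 : 0 ≤ ∑ i ∈ (Finset.univ.erase x).erase y, D i * D i :=
    Finset.sum_nonneg fun i _ => mul_self_nonneg _
  have hx1 : D x = 1 := by nlinarith
  have hy1 : D y = -1 := by nlinarith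
  have h3 : ∑ i ∈ (Finset.univ.erase x).erase y, D i * D i = 0 := by
    rw [hx1, hy1, hD] at h1; linarith
  refine ⟨x, y, hxy, fun i => ?_⟩
  by_cases hix : i = x
  · rw [hix, if_pos rfl, if_neg hxy, hx1]; norm_num
  · by_cases hiy : i = y
    · rw [hiy, if_neg hxy.symm, if_pos rfl, hy1]; norm_num
    · rw [if_neg hix, if_neg hiy]
      have h4 := (Finset.sum_eq_zero_iff_of_nonneg (fun i _ => mul_self_nonneg _)).1 h3 i
        (Finset.mem_erase.2 ⟨hiy, Finset.mem_erase.2 ⟨hix, Finset.mem_univ i⟩⟩)
      have h5 : D i = 0 := mul_self_eq_zero.1 h4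
      rw [h5]; norm_num

theorem delta_inner {I : Type*} [Fintype I] [DecidableEq I] (x y x' y' : I) :
    ∑ i, ((if i = x then (1 : ℤ) else 0) - (if i = y then 1 else 0)) *
      ((if i = x' then 1 else 0) - (if i = y' then 1 else 0)) =
      (if x = x' then 1 else 0) - (if x = y' then 1 else 0) - (if y = x' then 1 else 0) +
        (if y = y' then 1 else 0) := by
  have h : ∀ u v : I, ∑ i, (if i = u then (1 : ℤ) else 0) * (if i = v then 1 else 0) =
      if u = v then 1 else 0 := by
    intro u v
    rw [Finset.sum_eq_single u]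
    · rw [if_pos rfl, one_mul]
    · intro i _ hi; rw [if_neg hi, zero_mul]
    · intro h; exact absurd (Finset.mem_univ u) h
  have h1 : ∀ i : I, ((if i = x then (1 : ℤ) else 0) - (if i = y then 1 else 0)) *
      ((if i = x' then 1 else 0) - (if i = y' then 1 else 0)) =
      (if i = x then (1 : ℤ) else 0) * (if i = x' then 1 else 0) -
      (if i = x then (1 : ℤ) else 0) * (if i = y' then 1 else 0) -
      (if i = y then (1 : ℤ) else 0) * (if i = x' then 1 else 0) +
      (if i = y then (1 : ℤ) else 0) * (if i = y' then 1 else 0) := by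
    intro i; ring
  rw [Finset.sum_congr rfl (fun i _ => h1 i), Finset.sum_add_distrib, Finset.sum_sub_distrib,
    Finset.sum_sub_distrib, h, h, h, h]

/-- coherence -/
theorem coh {I L : Type*} [Fintype I] [DecidableEq I] [Fintype L] [DecidableEq L]
    (a : L → I → ℤ) (e : ℤ) (hg : ∀ l m, ∑ i, a l i * a m i = e + if l = m then 1 else 0)
    (d : I → ℤ) (hd : ∀ i, 0 < d i) (h0 : ∀ l, ∑ i, a l i * d i = 0) (l0 : L)
    (h2 : ∃ l1 : L, l1 ≠ l0) :
    ∃ (ε : ℤ) (ψ : L → I) (f : I → ℤ), (ε = 1 ∨ ε = -1) ∧ Function.Injective ψ ∧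
      ∀ l i, a l i = f i + ε * (if i = ψ l then 1 else 0) := by
  classical
  have hdiff : ∀ l m n k, ∑ i, (a l i - a m i) * (a n i - a k i) =
      (if l = n then 1 else 0) - (if l = k then 1 else 0) - (if m = n then 1 else 0) +
        (if m = k then 1 else 0) := by
    intro l m n k
    have h1 : ∀ i, (a l i - a m i) * (a n i - a k i) =
        a l i * a n i - a l i * a k i - a m i * a n i + a m i * a k i := by intro i; ring
    rw [Finset.sum_congr rfl (fun i _ => h1 i), Finset.sum_add_distrib, Finset.sum_sub_distrib,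
      Finset.sum_sub_distrib, hg, hg, hg, hg]
    ring
  have hinj : ∀ l m, (∀ i, a l i = a m i) → l = m := by
    intro l m h
    by_contra hne
    have h1 := hdiff l m l m
    rw [Finset.sum_eq_zero (fun i _ => by rw [h i]; ring), if_pos rfl, if_neg hne,
      if_neg (fun e => hne e.symm), if_pos rfl] at h1
    norm_num at h1
  have hxy : ∀ m, m ≠ l0 → ∃ x y, x ≠ y ∧ ∀ i, a l0 i - a m i =
      (if i = x then 1 else 0) - (if i = y then 1 else 0) := by
    intro m hm
    apply norm_two _ _ d hd
    · rw [Finset.sum_congr rfl (fun i _ => sub_mul _ _ _), Finset.sum_sub_distrib, h0, h0, sub_self]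
    · rw [hdiff l0 m l0 m, if_pos rfl, if_neg hm.symm, if_neg hm, if_pos rfl]; norm_num
  haveI : Nonempty I := by
    obtain ⟨l1, hl1⟩ := h2
    obtain ⟨x, -⟩ := hxy l1 hl1
    exact ⟨x⟩
  choose! x y hne hD using hxy
  have hsub : ∀ m n, m ≠ l0 → n ≠ l0 → m ≠ n → (x m = x n ∧ y m ≠ y n) ∨ (x m ≠ x n ∧ y m = y n) := by
    intro m n hm hn hmn
    have h1 := hdiff l0 m l0 n
    rw [if_pos rfl, if_neg hn.symm, if_neg hm, if_neg hmn,
      Finset.sum_congr rfl (fun i _ => by rw [hD m hm i, hD n hn i]), delta_inner] at h1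
    have h3 := hne m hm
    have h4 := hne n hn
    by_cases e1 : x m = x n
    · by_cases e2 : y m = y n
      · rw [if_pos e1, if_pos e2, if_neg (fun e => h4 (e1 ▸ e)), if_neg (fun e => h3 (e1.trans e.symm))] at h1
        norm_num at h1
      · exact Or.inl ⟨e1, e2⟩
    · by_cases e2 : y m = y n
      · exact Or.inr ⟨e1, e2⟩
      · rw [if_neg e1, if_neg e2] at h1
        split_ifs at h1 <;> norm_num at h1
  have hcase : (∃ X, ∀ m, m ≠ l0 → x m = X) ∨ (∃ Y, ∀ m, m ≠ l0 → y m = Y) := by
    by_cases hA : ∀ m n, m ≠ l0 → n ≠ l0 → x m = x n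
    · obtain ⟨l1, hl1⟩ := h2
      exact Or.inl ⟨x l1, fun m hm => hA m l1 hm hl1⟩
    · push Not at hA
      obtain ⟨m, n, hm, hn, hmn⟩ := hA
      have hmn' : m ≠ n := fun e => hmn (by rw [e])
      have h1 : y m = y n := by
        rcases hsub m n hm hn hmn' with h | h
        · exact absurd h.1 hmn
        · exact h.2
      refine Or.inr ⟨y m, fun k hk => ?_⟩
      by_contra hyk
      have k1 : k ≠ m := fun e => hyk (by rw [e])
      have k2 : k ≠ n := fun e => hyk (by rw [e, h1])
      have k3 : x k = x m := by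
        rcases hsub k m hk hm k1 with h | h
        · exact h.1
        · exact absurd h.2 hyk
      have k4 : x k = x n := by
        rcases hsub k n hk hn k2 with h | h
        · exact h.1
        · exact absurd h.2 (fun e => hyk (e.trans h1.symm))
      exact hmn (k3.symm.trans k4)
  rcases hcase with ⟨X, hX⟩ | ⟨Y, hY⟩
  · have key : ∀ l i, a l i = (a l0 i - (if i = X then 1 else 0)) +
        1 * (if i = (if l = l0 then X else y l) then 1 else 0) := by
      intro l i
      by_cases hl : l = l0
      · rw [hl, if_pos rfl]; ring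
      · rw [if_neg hl]
        have := hD l hl i
        rw [hX l hl] at this
        linarith
    refine ⟨1, fun m => if m = l0 then X else y m, fun i => a l0 i - (if i = X then 1 else 0),
      Or.inl rfl, ?_, fun l i => key l i⟩
    intro l m hlm
    apply hinj
    intro i
    rw [key l i, key m i]
    dsimp only at hlm
    rw [hlm]
  · have key : ∀ l i, a l i = (a l0 i + (if i = Y then 1 else 0)) +
        (-1) * (if i = (if l = l0 then Y else x l) then 1 else 0) := by
      intro l i
      by_cases hl : l = l0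
      · rw [hl, if_pos rfl]; ring
      · rw [if_neg hl]
        have := hD l hl i
        rw [hY l hl] at this
        linarith
    refine ⟨-1, fun m => if m = l0 then Y else x m, fun i => a l0 i + (if i = Y then 1 else 0),
      Or.inr rfl, ?_, fun l i => key l i⟩
    intro l m hlm
    apply hinj
    intro i
    rw [key l i, key m i]
    dsimp only at hlm
    rw [hlm]

/-- the constant value on the exceptional members -/
theorem coh_const {I L : Type*} [Fintype I] [DecidableEq I] [Fintype L] [DecidableEq L]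
    (a : L → I → ℤ) (e : ℤ) (hg : ∀ l m, ∑ i, a l i * a m i = e + if l = m then 1 else 0)
    {ε : ℤ} (hε : ε = 1 ∨ ε = -1) {ψ : L → I} {f : I → ℤ}
    (ha : ∀ l i, a l i = f i + ε * (if i = ψ l then 1 else 0)) (l : L) :
    ∑ i, f i * f i + 2 * ε * f (ψ l) = e := by
  have h1 := hg l l
  rw [if_pos rfl] at h1
  have h2 : ∀ i, a l i * a l i = f i * f i + (2 * ε * f i + ε * ε) * (if i = ψ l then 1 else 0) := by
    intro i
    rw [ha l i]
    split_ifs <;> ring
  rw [Finset.sum_congr rfl (fun i _ => h2 i), Finset.sum_add_distrib] at h1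
  have h3 : ∑ i, (2 * ε * f i + ε * ε) * (if i = ψ l then (1 : ℤ) else 0) = 2 * ε * f (ψ l) + ε * ε := by
    rw [Finset.sum_eq_single (ψ l)]
    · rw [if_pos rfl, mul_one]
    · intro i _ hi; rw [if_neg hi, mul_zero]
    · intro h; exact absurd (Finset.mem_univ _) h
  rw [h3] at h1
  have h4 : ε * ε = 1 := by rcases hε with h | h <;> rw [h] <;> norm_num
  linarith

end CfsgLib.Qb
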