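import Mathlib
import Cfsg.Agent.EqBase
import Cfsg.Agent.LibQb3
import Cfsg.Agent.LibQb5

/-!
# Weighted star-shaped blocks and a bound for subsections (helper17)
-/

set_option autoImplicit false
set_option linter.unusedSectionVars false
set_option linter.style.haveILetI false
set_option linter.unusedSimpArgs false
set_option linter.unusedVariables false

namespace CfsgLib.Qb

open CfsgLib.CharInt hiding irr_isCharacter irr_classFun irr_one_ne_zero schur_scalar
open Cfsg CfsgLib.CharInt2 CfsgLib.CharBasic CfsgLib.BlockR CfsgLib.BlockCore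
  CfsgLib.BlockIdem CfsgLib.BlockIdeal CfsgLib.BlockConj CfsgLib.BlockBrauer CfsgLib.BlockInd
  CfsgLib.BlockFMT CfsgLib.BlockFMT2 CfsgLib.PLocalInd CfsgLib.BlockOrth CfsgLib.BlockDefect
  CfsgLib.BlockReg CfsgLib.BlockReg2 CfsgLib.BlockCount CfsgLib.BlockCount2 CfsgLib.BlockQP
  CfsgLib.BlockCov CfsgLib.BlockCov2 CfsgLib.BlockCov3 CfsgLib.BlockCov4 CfsgLib.BlockQuo
  CfsgLib.BlkS2
open scoped ComplexConjugate Pointwise

universe u

section Non
variable {M : Ideal AlgInt} {p : ℕ} [hpF : Fact p.Prime] {G : Type u} [Group G] [Fintype G]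
variable {x : G} [hFC : Fintype (Subgroup.centralizer ({x} : Set G))]
variable {Q : Subgroup (Subgroup.centralizer ({x} : Set G))} [hQn : Q.Normal]
  [hFQ : Fintype (Subgroup.centralizer ({x} : Set G) ⧸ Q)]
variable {b : Set (IrrCharacter (Subgroup.centralizer ({x} : Set G)))}

/-- detection of characters by families of projective class functions -/
theorem nonvan_gen (hM : IsPModular p M) (hbB : IsPBlock M b)
    (hQ : IsPGroup p Q)
    (hC : ∀ g : Subgroup.centralizer ({x} : Set G), ¬ p ∣ orderOf g →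
      g ∈ Subgroup.centralizer (Q : Set (Subgroup.centralizer ({x} : Set G))))
    {ι : Type*} (Φ : ι → (Subgroup.centralizer ({x} : Set G) ⧸ Q) → ℂ)
    (hΦc : ∀ i, IsClassFunction _ (Φ i)) (hΦs : ∀ i y, p ∣ orderOf y → Φ i y = 0)
    (hΦb : ∀ i (ξ : IrrCharacter (Subgroup.centralizer ({x} : Set G) ⧸ Q)), infl Q ξ ∉ b →
      classInner (Φ i) (ξ : _ → ℂ) = 0)
    (T : Finset (IrrCharacter (Subgroup.centralizer ({x} : Set G) ⧸ Q)))
    (hT : ∀ ξ, infl Q ξ ∈ b → ξ ∈ T)
    (hdet : ∀ (F : (Subgroup.centralizer ({x} : Set G) ⧸ Q) → ℂ)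
      (cf : IrrCharacter (Subgroup.centralizer ({x} : Set G) ⧸ Q) → ℂ),
      (∀ g, ¬ p ∣ orderOf g → F g = ∑ ξ ∈ T, cf ξ * (ξ : _ → ℂ) g) →
      (∀ i, classInner (Φ i) F = 0) → ∀ g, ¬ p ∣ orderOf g → F g = 0)
    {χ : IrrCharacter G} (hA : Ct.Af p x b (χ : G → ℂ) ≠ 0) :
    ∃ i, classInner (til p Q (Φ i)) (Ct.th x (χ : G → ℂ)) ≠ 0 := by
  classical
  haveI := LocR.isPrime hM
  by_contra hcon
  push Not at hcon
  set F := Ct.Af p x b (χ : G → ℂ) with hF
  have hFth : F = prj b (reg p (Ct.th x (χ : G → ℂ))) := rfl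
  have hFc : IsClassFunction _ F := Ct.Af_classFun _
  have hblk : ∀ i, ∀ lam : IrrCharacter (Subgroup.centralizer ({x} : Set G)), lam ∉ b →
      classInner (til p Q (Φ i)) (lam : Subgroup.centralizer ({x} : Set G) → ℂ) = 0 := by
    intro i lam hlam
    rw [inner_til hQ hC _ (hΦs i) _ (rd p Q (lam : Subgroup.centralizer ({x} : Set G) → ℂ))
      (fun c hc => (rd_mk hQ hC _ hc).symm)]
    rw [classFun_expand (rd_classFun hQ hC (irr_classFun lam.2)), CharBasic.inner_sum_right]
    refine Finset.sum_eq_zero fun η _ => ?_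
    rw [CharBasic.inner_smul_right]
    by_cases hη : infl Q η ∈ b
    · rw [inner_rd hQ hC, inner_reg_zero hM, mul_zero, map_zero, zero_mul]
      intro h
      exact hlam (mem_of_sameBlock (isPrime_of_modular hM) hbB hη (sameBlock_symm h))
    · rw [hΦb i η hη, mul_zero]
  have h1 : ∀ i, classInner (Φ i) (rd p Q F) = 0 := by
    intro i
    rw [← inner_til hQ hC _ (hΦs i) F (rd p Q F)
      (fun c hc => (rd_mk hQ hC _ hc).symm)]
    rw [hFth]
    have hcT : IsClassFunction _ (til p Q (Φ i)) := til_classFun (hΦc i)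
    have hcH : IsClassFunction _ (reg p (Ct.th x (χ : G → ℂ))) :=
      reg_classFun (Ct.th_classFun (irr_classFun χ.2))
    rw [← Ct.prj_adj hcT hcH]
    have h2 : prj b (til p Q (Φ i)) = til p Q (Φ i) := by
      conv_rhs => rw [classFun_expand hcT]
      unfold prj
      refine Finset.sum_congr rfl fun lam _ => ?_
      by_cases hl : lam ∈ b
      · rw [ind_of hl, one_mul]
      · rw [hblk i lam hl, mul_zero]
    rw [h2, ← inner_reg_adj]
    have h3 : reg p (til p Q (Φ i)) = til p Q (Φ i) := by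
      funext c
      by_cases hc : p ∣ orderOf c
      · rw [reg_not hc, til_sing hc]
      · rw [reg_of hc]
    rw [h3]
    exact hcon i
  have h4 : ∀ y : Subgroup.centralizer ({x} : Set G) ⧸ Q, ¬ p ∣ orderOf y → rd p Q F y = 0 := by
    refine hdet _ (fun η => classInner (rd p Q F) (η : _ → ℂ)) ?_ h1
    intro g hg
    conv_lhs => rw [classFun_expand (rd_classFun hQ hC hFc)]
    rw [Finset.sum_apply]
    symm
    apply Finset.sum_subset (Finset.subset_univ _)
    intro η _ hη
    have h5 : infl Q η ∉ b := fun h6 => hη (hT η h6)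
    rw [inner_rd hQ hC, hFth, inner_reg_prj hM hbB _ h5, mul_zero]
    simp
  apply hA
  funext c
  by_cases hc : p ∣ orderOf c
  · exact Ct.Af_sing hM hbB _ hc
  · have h6 := h4 (c : _ ⧸ Q) (mk_reg hc)
    rw [rd_mk hQ hC F hc] at h6
    exact h6

end Non

/-! ### weighted stars -/

/-- weighted star-shaped blocks -/
structure WStar (p : ℕ) {H : Type u} [Group H] [Fintype H] (b : Set (IrrCharacter H))
    {V : Type u} [Fintype V] (F : V → Finset (IrrCharacter H)) (c : V → ℤ) (N : ℕ) : Prop where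
  mem : ∀ χ, χ ∈ b ↔ ∃ v, χ ∈ F v
  disj : ∀ v w χ, χ ∈ F v → χ ∈ F w → v = w
  ne : ∀ v, (F v).Nonempty
  two : 2 ≤ Fintype.card V
  cne : ∀ v, c v ≠ 0
  reg : ∀ v, ∀ χ ∈ F v, ∀ ψ ∈ F v, ∀ g : H, ¬ p ∣ orderOf g → (χ : H → ℂ) g = (ψ : H → ℂ) g
  rel : ∀ g : H, ¬ p ∣ orderOf g →
    ∑ v, (c v : ℂ) * ((F v).card : ℂ)⁻¹ * ∑ χ ∈ F v, (χ : H → ℂ) g = 0
  sing : ∀ v w, ∀ g : H, p ∣ orderOf g →
    (c w : ℂ) * ∑ χ ∈ F v, (χ : H → ℂ) g = (c v : ℂ) * ∑ χ ∈ F w, (χ : H → ℂ) g
  num : ∑ v, ((F v).card : ℤ) * (∑ w, c w * c w - c v * c v) ≤ N * ((Fintype.card V : ℤ) - 1)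

section WS
variable {M : Ideal AlgInt} {p : ℕ} [hpF : Fact p.Prime] {H : Type u} [Group H] [Fintype H]
variable {b : Set (IrrCharacter H)} {V : Type u} [Fintype V] [DecidableEq V]
  {F : V → Finset (IrrCharacter H)} {c : V → ℤ} {N : ℕ}

noncomputable def XX (F : V → Finset (IrrCharacter H)) (v : V) : H → ℂ := ∑ χ ∈ F v, (χ : H → ℂ)

noncomputable def PP (F : V → Finset (IrrCharacter H)) (c : V → ℤ) (vw : V × V) : H → ℂ :=
  (c vw.2 : ℂ) • XX F vw.1 - (c vw.1 : ℂ) • XX F vw.2

theorem XX_inner [DecidableEq (IrrCharacter H)] (v : V) (ψ : IrrCharacter H) :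
    classInner (XX F v) (ψ : H → ℂ) = if ψ ∈ F v then 1 else 0 := by
  rw [XX, CharBasic.inner_sum_left, Finset.sum_congr rfl (fun φ _ => inner_irr φ ψ),
    Finset.sum_ite_eq' (F v) ψ]

theorem WStar.XX_XX (h : WStar p b F c N) (v w : V) :
    classInner (XX F v) (XX F w) = if v = w then ((F v).card : ℂ) else 0 := by
  classical
  conv_lhs => rw [show XX F w = ∑ χ ∈ F w, (χ : H → ℂ) from rfl]
  rw [CharBasic.inner_sum_right, Finset.sum_congr rfl (fun ψ _ => XX_inner v ψ)]
  by_cases hvw : v = w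
  · subst hvw
    rw [if_pos rfl, Finset.sum_congr rfl (fun ψ hψ => if_pos hψ), Finset.sum_const, nsmul_eq_mul, mul_one]
  · rw [if_neg hvw]
    exact Finset.sum_eq_zero fun ψ hψ => if_neg (fun h' => hvw (h.disj v w ψ h' hψ))

theorem PP_gen (vw : V × V) : IsGeneralizedCharacter H (PP F c vw) :=
  gen_sub (gen_intsmul (gen_sum _ _ fun ψ _ => gen_of_irr ψ.2) _)
    (gen_intsmul (gen_sum _ _ fun ψ _ => gen_of_irr ψ.2) _)

theorem WStar.PP_sing (h : WStar p b F c N) (vw : V × V) {g : H} (hg : p ∣ orderOf g) :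
    PP F c vw g = 0 := by
  have := h.sing vw.1 vw.2 g hg
  rw [PP, Pi.sub_apply, Pi.smul_apply, Pi.smul_apply, XX, XX, Finset.sum_apply, Finset.sum_apply,
    smul_eq_mul, smul_eq_mul, this, sub_self]

theorem WStar.PP_block (h : WStar p b F c N) (vw : V × V) {ψ : IrrCharacter H} (hψ : ψ ∉ b) :
    classInner (PP F c vw) (ψ : H → ℂ) = 0 := by
  classical
  rw [h.mem, not_exists] at hψ
  rw [PP, CharBasic.inner_sub_left, CharBasic.inner_smul_left, CharBasic.inner_smul_left,
    XX_inner, XX_inner, if_neg (hψ _), if_neg (hψ _)]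
  ring

theorem WStar.PP_norm (h : WStar p b F c N) (vw : V × V) :
    classInner (PP F c vw) (PP F c vw) = (c vw.2 : ℂ) * c vw.2 * (F vw.1).card +
      (c vw.1 : ℂ) * c vw.1 * (F vw.2).card -
      (if vw.1 = vw.2 then 2 * ((c vw.1 : ℂ) * c vw.1 * (F vw.1).card) else 0) := by
  obtain ⟨v, w⟩ := vw
  dsimp only
  rw [PP, CharBasic.inner_sub_left, CharBasic.inner_sub_right, CharBasic.inner_sub_right,
    CharBasic.inner_smul_left, CharBasic.inner_smul_left, CharBasic.inner_smul_left,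
    CharBasic.inner_smul_left, CharBasic.inner_smul_right, CharBasic.inner_smul_right,
    CharBasic.inner_smul_right, CharBasic.inner_smul_right, h.XX_XX, h.XX_XX, h.XX_XX, h.XX_XX,
    map_intCast, map_intCast]
  dsimp only
  by_cases hvw : v = w
  · subst hvw
    simp only [if_true]
    ring
  · rw [if_pos rfl, if_pos rfl, if_neg hvw, if_neg (fun e : w = v => hvw e.symm), if_neg hvw]
    ring

/-- regular combinations of the block are detected by the `PP` -/
theorem WStar.detect (h : WStar p b F c N) [DecidableEq (IrrCharacter H)] {f : H → ℂ} (cf : IrrCharacter H → ℂ)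
    (hF : ∀ g, ¬ p ∣ orderOf g → f g = ∑ ξ ∈ Finset.univ.biUnion F, cf ξ * (ξ : H → ℂ) g)
    (h0 : ∀ vw, classInner (PP F c vw) f = 0) {g : H} (hg : ¬ p ∣ orderOf g) : f g = 0 := by
  classical
  have hcard : ∀ v, ((F v).card : ℂ) ≠ 0 := fun v => by
    exact_mod_cast (Finset.card_pos.2 (h.ne v)).ne'
  set t : V → ℂ := fun v => ∑ ξ ∈ F v, cf ξ with ht
  have hpd : Set.PairwiseDisjoint (↑(Finset.univ : Finset V)) F := by
    intro v _ w _ hvw
    rw [Function.onFun, Finset.disjoint_left]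
    intro χ h1 h2
    exact hvw (h.disj v w χ h1 h2)
  -- average value
  have hav : ∀ v, ∀ ξ ∈ F v, ∀ g : H, ¬ p ∣ orderOf g →
      (ξ : H → ℂ) g = ((F v).card : ℂ)⁻¹ * ∑ χ ∈ F v, (χ : H → ℂ) g := by
    intro v ξ hξ g hg
    rw [Finset.sum_congr rfl (fun χ hχ => h.reg v χ hχ ξ hξ g hg), Finset.sum_const, nsmul_eq_mul,
      ← mul_assoc, inv_mul_cancel₀ (hcard v), one_mul]
  have h1 : ∀ g, ¬ p ∣ orderOf g → f g = ∑ v, (t v * ((F v).card : ℂ)⁻¹) * XX F v g := by
    intro g hg
    rw [hF g hg, Finset.sum_biUnion hpd]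
    refine Finset.sum_congr rfl fun v _ => ?_
    rw [XX, Finset.sum_apply, ht]
    dsimp only
    rw [Finset.sum_mul, Finset.sum_mul]
    refine Finset.sum_congr rfl fun ξ hξ => ?_
    rw [hav v ξ hξ g hg]
    ring
  have h2 : ∀ v w, (c w : ℂ) * conj (t v) = (c v : ℂ) * conj (t w) := by
    intro v w
    have h3 := h0 (v, w)
    have h4 : classInner (PP F c (v, w)) f =
        classInner (PP F c (v, w)) (∑ v, (t v * ((F v).card : ℂ)⁻¹) • XX F v) := by
      unfold classInner
      congr 1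
      refine Finset.sum_congr rfl fun g _ => ?_
      by_cases hg : p ∣ orderOf g
      · rw [h.PP_sing _ hg, zero_mul, zero_mul]
      · rw [h1 g hg, Finset.sum_apply]; rfl
    have h5 : ∀ v, classInner (XX F v) (∑ v, (t v * ((F v).card : ℂ)⁻¹) • XX F v) = conj (t v) := by
      intro v
      rw [CharBasic.inner_sum_right, Finset.sum_eq_single v]
      · rw [CharBasic.inner_smul_right, h.XX_XX, if_pos rfl, map_mul, map_inv₀, map_natCast,
          mul_assoc, inv_mul_cancel₀ (hcard v), mul_one]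
      · intro w _ hw
        rw [CharBasic.inner_smul_right, h.XX_XX, if_neg hw.symm, mul_zero]
      · intro hn; exact absurd (Finset.mem_univ v) hn
    rw [h4, PP, CharBasic.inner_sub_left, CharBasic.inner_smul_left, CharBasic.inner_smul_left,
      h5, h5, sub_eq_zero] at h3
    exact h3
  obtain ⟨v0⟩ : Nonempty V := by
    rw [← Fintype.card_pos_iff]
    have := h.two; omega
  have hc0 : (c v0 : ℂ) ≠ 0 := by exact_mod_cast h.cne v0
  have h3 : ∀ v, t v = (t v0 / c v0) * c v := by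
    intro v
    have h4 := congrArg conj (h2 v0 v)
    rw [map_mul, map_mul, map_intCast, map_intCast, Complex.conj_conj, Complex.conj_conj] at h4
    field_simp
    linear_combination -h4
  rw [h1 g hg]
  have h4 := h.rel g hg
  have h5 : ∀ v, (t v * ((F v).card : ℂ)⁻¹) * XX F v g =
      (t v0 / c v0) * ((c v : ℂ) * ((F v).card : ℂ)⁻¹ * ∑ χ ∈ F v, (χ : H → ℂ) g) := by
    intro v
    conv_lhs => rw [h3 v]
    rw [XX, Finset.sum_apply]
    ring
  rw [Finset.sum_congr rfl (fun v _ => h5 v), ← Finset.mul_sum, h4, mul_zero]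

end WS

section Bound
variable {M : Ideal AlgInt} {p : ℕ} [hpF : Fact p.Prime] {G : Type u} [Group G] [Fintype G]
variable {x : G} [hFC : Fintype (Subgroup.centralizer ({x} : Set G))]
variable {Q : Subgroup (Subgroup.centralizer ({x} : Set G))} [hQn : Q.Normal]
  [hFQ : Fintype (Subgroup.centralizer ({x} : Set G) ⧸ Q)]
variable {b : Set (IrrCharacter (Subgroup.centralizer ({x} : Set G)))}

theorem wstar_bound (hM : IsPModular p M) (hx : ∃ k : ℕ, orderOf x = p ^ k) (hbB : IsPBlock M b)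
    (hQ : IsPGroup p Q)
    (hC : ∀ g : Subgroup.centralizer ({x} : Set G), ¬ p ∣ orderOf g →
      g ∈ Subgroup.centralizer (Q : Set (Subgroup.centralizer ({x} : Set G))))
    {V : Type u} [Fintype V] [DecidableEq V]
    {F : V → Finset (IrrCharacter (Subgroup.centralizer ({x} : Set G) ⧸ Q))} {c : V → ℤ} {N : ℕ}
    (hst : WStar p {ξ : IrrCharacter (Subgroup.centralizer ({x} : Set G) ⧸ Q) | infl Q ξ ∈ b} F c N)
    (S : Finset (IrrCharacter G)) (hS : ∀ χ ∈ S, Ct.Af p x b (χ : G → ℂ) ≠ 0) :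
    S.card ≤ Nat.card Q * N := by
  classical
  obtain ⟨n, hn⟩ := hx
  let Θ : V × V → Subgroup.centralizer ({x} : Set G) → ℂ := fun vw => til p Q (PP F c vw)
  have hΘg : ∀ vw, IsGeneralizedCharacter _ (Θ vw) := fun vw =>
    til_gen hQ hC (PP_gen vw) (fun y hy => hst.PP_sing vw hy)
  have hcnt : ∀ χ ∈ S, 2 * (Fintype.card V - 1) ≤ (Finset.univ.filter
      (fun vw => classInner (Θ vw) (Ct.th x (χ : G → ℂ)) ≠ 0)).card := by
    intro χ hχ
    obtain ⟨vw, hvw⟩ := nonvan_gen hM hbB hQ hC (fun vw => PP F c vw)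
      (fun vw => gen_classFun (PP_gen vw)) (fun vw y hy => hst.PP_sing vw hy)
      (fun vw ξ hξ => hst.PP_block vw (ψ := ξ) hξ) (Finset.univ.biUnion F)
      (fun ξ hξ => by
        obtain ⟨v, hv⟩ := (hst.mem ξ).1 hξ
        exact Finset.mem_biUnion.2 ⟨v, Finset.mem_univ v, hv⟩)
      (fun f cf h1 h2 g hg => hst.detect cf h1 h2 hg) (hS χ hχ)
    let r : V → ℂ := fun v => classInner (til p Q (XX F v)) (Ct.th x (χ : G → ℂ)) / c v
    have hcz : ∀ v, (c v : ℂ) ≠ 0 := fun v => by exact_mod_cast hst.cne v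
    have hsm : ∀ (z : ℂ) (f : (Subgroup.centralizer ({x} : Set G) ⧸ Q) → ℂ),
        til p Q (z • f) = z • til p Q f := by
      intro z f
      funext y
      by_cases hy : p ∣ orderOf y
      · rw [til_sing hy, Pi.smul_apply, til_sing hy, smul_zero]
      · rw [til_reg hy]
        change _ * (z * f _) = z * til p Q f y
        rw [til_reg hy]; ring
    have hval : ∀ vw : V × V, classInner (Θ vw) (Ct.th x (χ : G → ℂ)) =
        (c vw.1 : ℂ) * c vw.2 * (r vw.1 - r vw.2) := by
      intro vw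
      change classInner (til p Q ((c vw.2 : ℂ) • XX F vw.1 - (c vw.1 : ℂ) • XX F vw.2)) _ = _
      rw [til_sub, hsm, hsm, CharBasic.inner_sub_left, CharBasic.inner_smul_left,
        CharBasic.inner_smul_left]
      change _ = (c vw.1 : ℂ) * c vw.2 * (classInner (til p Q (XX F vw.1)) (Ct.th x (χ : G → ℂ)) / c vw.1 -
        classInner (til p Q (XX F vw.2)) (Ct.th x (χ : G → ℂ)) / c vw.2)
      have h1 := hcz vw.1
      have h2 := hcz vw.2
      field_simp
    have hne : r vw.1 ≠ r vw.2 := by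
      intro h1
      apply hvw
      have := hval vw
      rw [h1, sub_self, mul_zero] at this
      exact this
    refine le_trans (pairs_card r hne) (le_of_eq ?_)
    congr 1
    ext vw
    rw [Finset.mem_filter, Finset.mem_filter, hval vw]
    constructor
    · rintro ⟨h1, h2⟩
      exact ⟨h1, mul_ne_zero (mul_ne_zero (hcz _) (hcz _)) h2⟩
    · rintro ⟨h1, h2⟩
      exact ⟨h1, fun h3 => h2 (by rw [h3, mul_zero])⟩
  set TT : ℤ := 2 * ∑ v, ((F v).card : ℤ) * (∑ w, c w * c w - c v * c v) with hTT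
  have hsumC : ∑ vw : V × V, classInner (PP F c vw) (PP F c vw) = (TT : ℂ) := by
    rw [Finset.sum_congr rfl (fun vw _ => hst.PP_norm vw), Finset.sum_sub_distrib,
      Finset.sum_add_distrib, Fintype.sum_prod_type, Fintype.sum_prod_type, Fintype.sum_prod_type]
    have e1 : ∑ v, ∑ w, (c w : ℂ) * c w * (F v).card = (∑ w, (c w : ℂ) * c w) * ∑ v, ((F v).card : ℂ) := by
      rw [Finset.mul_sum]
      refine Finset.sum_congr rfl fun v _ => ?_
      rw [Finset.sum_mul]
    have e2 : ∑ v, ∑ w, (c v : ℂ) * c v * (F w).card = (∑ w, (c w : ℂ) * c w) * ∑ v, ((F v).card : ℂ) := by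
      rw [Finset.sum_comm, Finset.mul_sum]
      refine Finset.sum_congr rfl fun v _ => ?_
      rw [Finset.sum_mul]
    have e3 : ∑ v, ∑ w, (if v = w then 2 * ((c v : ℂ) * c v * (F v).card) else 0) =
        2 * ∑ v, (c v : ℂ) * c v * (F v).card := by
      rw [Finset.mul_sum]
      refine Finset.sum_congr rfl fun v _ => ?_
      rw [Finset.sum_ite_eq, if_pos (Finset.mem_univ _)]
    dsimp only
    rw [e1, e2, e3, hTT]
    push_cast
    have e4 : ∑ v, ((F v).card : ℂ) * (∑ w, (c w : ℂ) * c w - (c v : ℂ) * c v) =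
        (∑ w, (c w : ℂ) * c w) * (∑ v, ((F v).card : ℂ)) - ∑ v, (c v : ℂ) * c v * (F v).card := by
      rw [Finset.mul_sum, ← Finset.sum_sub_distrib]
      exact Finset.sum_congr rfl fun v _ => by ring
    rw [e4]
    ring
  have hT0 : 0 ≤ TT := by
    rw [hTT]
    refine mul_nonneg (by norm_num) (Finset.sum_nonneg fun v _ => mul_nonneg (by positivity) ?_)
    rw [sub_nonneg]
    exact Finset.single_le_sum (f := fun w => c w * c w) (fun w _ => mul_self_nonneg _) (Finset.mem_univ v)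
  have hsum : ∑ vw, classInner (Θ vw) (Θ vw) = ((Nat.card Q * TT.toNat : ℕ) : ℂ) := by
    rw [Finset.sum_congr rfl (fun vw _ => norm_til hQ hC _ (fun y hy => hst.PP_sing vw hy)),
      ← Finset.mul_sum, hsumC, Nat.cast_mul]
    have h3 : ((TT.toNat : ℤ) : ℂ) = (TT : ℂ) := by rw [Int.toNat_of_nonneg hT0]
    rw [← h3, Int.cast_natCast]
  have h4 := qb (p := p) (x := x) (n := n) (by rw [← hn]; exact pow_orderOf_eq_one x) Θ hΘg
    (fun vw y hy => til_sing hy) S (2 * (Fintype.card V - 1)) hcnt _ hsum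
  have h5 : TT.toNat ≤ 2 * (N * (Fintype.card V - 1)) := by
    have h6 : TT ≤ 2 * (N * ((Fintype.card V : ℤ) - 1)) := by
      rw [hTT]; have := hst.num; linarith
    have h7 : ((2 * (N * (Fintype.card V - 1)) : ℕ) : ℤ) = 2 * (N * ((Fintype.card V : ℤ) - 1)) := by
      have := hst.two
      push_cast [Nat.cast_sub (show 1 ≤ Fintype.card V by omega)]
      ring
    rw [← h7] at h6
    omega
  have h8 : 0 < 2 * (Fintype.card V - 1) := by have := hst.two; omega
  have h9 : (2 * (Fintype.card V - 1)) * S.card ≤ (2 * (Fintype.card V - 1)) * (Nat.card Q * N) := by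
    calc (2 * (Fintype.card V - 1)) * S.card = S.card * (2 * (Fintype.card V - 1)) := by ring
      _ ≤ Nat.card Q * TT.toNat := h4
      _ ≤ Nat.card Q * (2 * (N * (Fintype.card V - 1))) := Nat.mul_le_mul_left _ h5
      _ = _ := by ring
  exact Nat.le_of_mul_le_mul_left h9 h8

end Bound

end CfsgLib.Qb
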