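import Mathlib
import Cfsg.Agent.EqBase
import Cfsg.Agent.LibQb6

/-!
# Weighted stars from coherent families (helper17)
-/

set_option autoImplicit false
set_option linter.unusedSectionVars false
set_option linter.style.haveILetI false
set_option linter.unusedSimpArgs false
set_option linter.unusedVariables false

namespace CfsgLib.Qb

open CfsgLib.CharInt hiding irr_isCharacter irr_classFun irr_one_ne_zero schur_scalar
open Cfsg CfsgLib.CharInt2 CfsgLib.CharBasic CfsgLib.BlockR CfsgLib.BlockCore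
  CfsgLib.BlockIdem CfsgLib.BlockIdeal CfsgLib.BlockConj CfsgLib.BlockBrauer CfsgLib.BlockInd
  CfsgLib.BlockFMT CfsgLib.BlockFMT2 CfsgLib.PLocalInd CfsgLib.BlockOrth CfsgLib.BlockDefect
  CfsgLib.BlockReg CfsgLib.BlockReg2 CfsgLib.BlockCount CfsgLib.BlockCount2 CfsgLib.BlockQP
  CfsgLib.BlockCov CfsgLib.BlockCov2 CfsgLib.BlockCov3 CfsgLib.BlockCov4 CfsgLib.BlockQuo
  CfsgLib.BlkS2
open scoped ComplexConjugate Pointwise

universe u v

section Mk
variable {p : ℕ} [hpF : Fact p.Prime] {H : Type u} [Group H] [Fintype H]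

/-- data for blocks with cyclic defect groups -/
structure CohData (p : ℕ) {H : Type u} [Group H] [Fintype H] (B : Set (IrrCharacter H))
    (L : Type v) [Fintype L] [DecidableEq L] (a : L → IrrCharacter H → ℤ) (e : ℕ) : Prop where
  epos : 0 < e
  supp : ∀ l χ, χ ∉ B → a l χ = 0
  gram : ∀ l m, ∑ χ, a l χ * a m χ = e + if l = m then 1 else 0
  rel : ∀ l (g : H), ¬ p ∣ orderOf g → ∑ χ, (a l χ : ℂ) * (χ : H → ℂ) g = 0
  proj : ∀ X : IrrCharacter H → ℂ, (∀ χ, χ ∉ B → X χ = 0) → (∀ l, ∑ χ, X χ * (a l χ : ℂ) = 0) →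
    ∀ g : H, p ∣ orderOf g → ∑ χ, X χ * (χ : H → ℂ) g = 0
  nz : ∀ χ ∈ B, ∃ l, a l χ ≠ 0

theorem deg_pos (χ : IrrCharacter H) : 0 < (charDegree (χ : H → ℂ) : ℤ) := by
  have h1 := CharBasic.irr_one_ne_zero χ.2
  rw [CharInt.irr_one_eq_charDegree χ.2] at h1
  have : charDegree (χ : H → ℂ) ≠ 0 := by
    intro h; rw [h] at h1; simp at h1
  omega

theorem one_reg' : ¬ p ∣ orderOf (1 : H) := by
  rw [orderOf_one, Nat.dvd_one]; exact hpF.out.ne_one

theorem CohData.deg {B : Set (IrrCharacter H)} {L : Type v} [Fintype L] [DecidableEq L]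
    {a : L → IrrCharacter H → ℤ} {e : ℕ} (h : CohData p B L a e) (l : L) :
    ∑ χ, a l χ * (charDegree (χ : H → ℂ) : ℤ) = 0 := by
  have h1 := h.rel l 1 one_reg'
  have h2 : ((∑ χ, a l χ * (charDegree (χ : H → ℂ) : ℤ) : ℤ) : ℂ) = 0 := by
    push_cast
    rw [← h1]
    refine Finset.sum_congr rfl fun χ _ => ?_
    rw [CharInt.irr_one_eq_charDegree χ.2]
  exact_mod_cast h2

theorem sum_sub {I A : Type*} [Fintype I] [AddCommMonoid A] (P : I → Prop) [Fintype {x // P x}]
    (f : I → A) (hf : ∀ x, ¬ P x → f x = 0) : ∑ v : {x // P x}, f v.1 = ∑ x, f x := by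
  classical
  rw [← Finset.sum_subtype (Finset.univ.filter P) (by simp) f, Finset.sum_filter]
  refine Finset.sum_congr rfl fun x _ => ?_
  by_cases h : P x
  · rw [if_pos h]
  · rw [if_neg h, hf x h]

/-- singular relation between vertices -/
theorem CohData.sing {B : Set (IrrCharacter H)} {L : Type v} [Fintype L] [DecidableEq L]
    {a : L → IrrCharacter H → ℤ} {e : ℕ} (h : CohData p B L a e) {A A' : Finset (IrrCharacter H)}
    (hA : ∀ χ ∈ A, χ ∈ B) (hA' : ∀ χ ∈ A', χ ∈ B) {cA cA' : ℤ} (h1 : ∀ l, ∑ χ ∈ A, a l χ = cA)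
    (h2 : ∀ l, ∑ χ ∈ A', a l χ = cA') {g : H} (hg : p ∣ orderOf g) :
    (cA' : ℂ) * ∑ χ ∈ A, (χ : H → ℂ) g = (cA : ℂ) * ∑ χ ∈ A', (χ : H → ℂ) g := by
  classical
  have h3 := h.proj (fun χ => (cA' : ℂ) * (if χ ∈ A then 1 else 0) - (cA : ℂ) * (if χ ∈ A' then 1 else 0))
    (fun χ hχ => by
      rw [if_neg (fun e => hχ (hA χ e)), if_neg (fun e => hχ (hA' χ e))]; ring)
    (fun l => by
      have e1 : ∀ χ, ((cA' : ℂ) * (if χ ∈ A then 1 else 0) - (cA : ℂ) * (if χ ∈ A' then 1 else 0)) * (a l χ : ℂ) =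
          (cA' : ℂ) * (if χ ∈ A then (a l χ : ℂ) else 0) - (cA : ℂ) * (if χ ∈ A' then (a l χ : ℂ) else 0) := by
        intro χ; split_ifs <;> ring
      rw [Finset.sum_congr rfl (fun χ _ => e1 χ), Finset.sum_sub_distrib, ← Finset.mul_sum,
        ← Finset.mul_sum, Finset.sum_ite_mem, Finset.sum_ite_mem, Finset.univ_inter,
        Finset.univ_inter]
      have e2 : (∑ χ ∈ A, (a l χ : ℂ)) = cA := by rw [← h1 l]; push_cast; rfl
      have e3 : (∑ χ ∈ A', (a l χ : ℂ)) = cA' := by rw [← h2 l]; push_cast; rfl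
      rw [e2, e3]; ring) g hg
  have e1 : ∀ χ : IrrCharacter H, ((cA' : ℂ) * (if χ ∈ A then 1 else 0) - (cA : ℂ) * (if χ ∈ A' then 1 else 0)) *
      (χ : H → ℂ) g =
      (cA' : ℂ) * (if χ ∈ A then (χ : H → ℂ) g else 0) - (cA : ℂ) * (if χ ∈ A' then (χ : H → ℂ) g else 0) := by
    intro χ; split_ifs <;> ring
  rw [Finset.sum_congr rfl (fun χ _ => e1 χ), Finset.sum_sub_distrib, ← Finset.mul_sum,
    ← Finset.mul_sum, Finset.sum_ite_mem, Finset.sum_ite_mem, Finset.univ_inter,
    Finset.univ_inter, sub_eq_zero] at h3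
  exact h3

/-- one exceptional character: everything is on the same footing -/
theorem CohData.star_one {B : Set (IrrCharacter H)} {L : Type v} [Fintype L] [DecidableEq L]
    {a : L → IrrCharacter H → ℤ} {e : ℕ} (h : CohData p B L a e) (l0 : L) (hL : ∀ l, l = l0) :
    ∃ (V : Type u) (_ : Fintype V) (_ : DecidableEq V) (F : V → Finset (IrrCharacter H)) (c : V → ℤ),
      WStar p B F c (e * Fintype.card L + 1) := by
  classical
  have hcL : Fintype.card L = 1 := Fintype.card_eq_one_iff.2 ⟨l0, hL⟩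
  let V : Type u := {χ : IrrCharacter H // χ ∈ B}
  haveI : Fintype V := Fintype.ofFinite V
  have hS : ∑ w : V, a l0 w.1 * a l0 w.1 = (e : ℤ) + 1 := by
    have h1 := h.gram l0 l0
    rw [if_pos rfl] at h1
    rw [← h1]
    exact sum_sub (fun χ => χ ∈ B) (fun χ => a l0 χ * a l0 χ) (fun χ hχ => by rw [h.supp l0 χ hχ, zero_mul])
  have hcne : ∀ v : V, a l0 v.1 ≠ 0 := by
    intro v
    obtain ⟨l, hl⟩ := h.nz v.1 v.2
    rwa [hL l] at hl
  have h2V : 2 ≤ Fintype.card V := by
    by_contra hlt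
    have h1 : Fintype.card V ≤ 1 := by omega
    have h2 := Fintype.card_le_one_iff_subsingleton.1 h1
    have h3 : ∀ v w : V, v = w := fun v w => Subsingleton.elim v w
    have hd := h.deg l0
    rw [← sum_sub (fun χ => χ ∈ B) (fun χ => a l0 χ * (charDegree (χ : H → ℂ) : ℤ))
      (fun χ hχ => by rw [h.supp l0 χ hχ, zero_mul])] at hd
    rcases isEmpty_or_nonempty V with hV | ⟨⟨v0⟩⟩
    · rw [Finset.univ_eq_empty, Finset.sum_empty] at hS
      omega
    · rw [Fintype.sum_eq_single v0 (fun w hw => absurd (h3 w v0) hw)] at hd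
      exact mul_ne_zero (hcne v0) (deg_pos v0.1).ne' hd
  refine ⟨V, inferInstance, inferInstance, fun v => {v.1}, fun v => a l0 v.1, ?_, ?_, ?_, h2V, hcne, ?_, ?_, ?_, ?_⟩
  · intro χ
    constructor
    · intro hχ; exact ⟨⟨χ, hχ⟩, Finset.mem_singleton_self _⟩
    · rintro ⟨v, hv⟩; rw [Finset.mem_singleton.1 hv]; exact v.2
  · intro v w χ h1 h2
    exact Subtype.ext ((Finset.mem_singleton.1 h1).symm.trans (Finset.mem_singleton.1 h2))
  · intro v; exact Finset.singleton_nonempty _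
  · intro v χ h1 ψ h2 g _
    rw [Finset.mem_singleton.1 h1, Finset.mem_singleton.1 h2]
  · intro g hg
    rw [← h.rel l0 g hg, ← sum_sub (fun χ => χ ∈ B) (fun χ => (a l0 χ : ℂ) * (χ : H → ℂ) g)
      (fun χ hχ => by rw [h.supp l0 χ hχ]; simp)]
    refine Finset.sum_congr rfl fun v _ => ?_
    rw [Finset.card_singleton, Finset.sum_singleton]; simp
  · intro v w g hg
    exact h.sing (A := {v.1}) (A' := {w.1}) (fun χ hχ => by rw [Finset.mem_singleton.1 hχ]; exact v.2)
      (fun χ hχ => by rw [Finset.mem_singleton.1 hχ]; exact w.2)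
      (fun l => by rw [Finset.sum_singleton, hL l]) (fun l => by rw [Finset.sum_singleton, hL l]) hg
  · rw [hcL]
    have e1 : ∀ v : V, ((({v.1} : Finset (IrrCharacter H)).card : ℕ) : ℤ) *
        (∑ w : V, a l0 w.1 * a l0 w.1 - a l0 v.1 * a l0 v.1) = ((e : ℤ) + 1) - a l0 v.1 * a l0 v.1 := by
      intro v
      rw [Finset.card_singleton, hS]; push_cast; ring
    rw [Finset.sum_congr rfl (fun v _ => e1 v), Finset.sum_sub_distrib, hS, Finset.sum_const,
      Finset.card_univ, nsmul_eq_mul]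
    push_cast
    apply le_of_eq
    ring

/-- several exceptional characters -/
theorem CohData.star_many {B : Set (IrrCharacter H)} {L : Type v} [Fintype L] [DecidableEq L]
    {a : L → IrrCharacter H → ℤ} {e : ℕ} (h : CohData p B L a e) (l0 : L) (hL : ∃ l1 : L, l1 ≠ l0) :
    ∃ (V : Type u) (_ : Fintype V) (_ : DecidableEq V) (F : V → Finset (IrrCharacter H)) (c : V → ℤ),
      WStar p B F c (e * Fintype.card L + 1) := by
  classical
  obtain ⟨ε, ψ, f, hε, hψ, ha⟩ := coh a e h.gram (fun χ => (charDegree (χ : H → ℂ) : ℤ))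
    (fun χ => deg_pos χ) h.deg l0 hL
  have hεε : ε * ε = 1 := by rcases hε with r | r <;> rw [r] <;> norm_num
  have hε0 : ε ≠ 0 := by rcases hε with r | r <;> rw [r] <;> norm_num
  set m : ℕ := Fintype.card L with hm
  have hm2 : 2 ≤ m := by
    obtain ⟨l1, hl1⟩ := hL
    have : 1 < Fintype.card L := Fintype.one_lt_card_iff.2 ⟨l1, l0, hl1⟩
    omega
  set b0 : ℤ := f (ψ l0) with hb0
  have hb : ∀ l, f (ψ l) = b0 := by
    intro l
    have h1 := coh_const a e h.gram hε ha l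
    have h2 := coh_const a e h.gram hε ha l0
    have h3 : 2 * ε * (f (ψ l) - f (ψ l0)) = 0 := by linarith
    rcases mul_eq_zero.1 h3 with h4 | h4
    · exact absurd h4 (mul_ne_zero two_ne_zero hε0)
    · rw [hb0]; linarith
  have hff : ∑ χ, f χ * f χ + 2 * ε * b0 = e := coh_const a e h.gram hε ha l0
  set E : Finset (IrrCharacter H) := Finset.univ.image ψ with hE
  have hEcard : E.card = m := by rw [hE, Finset.card_image_of_injective _ hψ, Finset.card_univ]
  have hEm : ∀ χ, χ ∈ E ↔ ∃ l, ψ l = χ := by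
    intro χ; rw [hE, Finset.mem_image]; simp
  have hEB : ∀ χ ∈ E, χ ∈ B := by
    intro χ hχ
    obtain ⟨l, rfl⟩ := (hEm χ).1 hχ
    by_contra hn
    obtain ⟨l', hl'⟩ : ∃ l', l' ≠ l := by
      by_cases h1 : l = l0
      · obtain ⟨l1, hl1⟩ := hL; exact ⟨l1, by rw [h1]; exact hl1⟩
      · exact ⟨l0, fun e => h1 e.symm⟩
    have h1 := ha l (ψ l)
    have h2 := ha l' (ψ l)
    rw [h.supp l _ hn, if_pos rfl] at h1
    rw [h.supp l' _ hn, if_neg (fun e => hl' (hψ e).symm)] at h2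
    apply hε0; linarith
  have hfo : ∀ χ, χ ∉ E → ∀ l, a l χ = f χ := by
    intro χ hχ l
    rw [ha l χ, if_neg (fun e => hχ ((hEm χ).2 ⟨l, e.symm⟩)), mul_zero, add_zero]
  have hfB : ∀ χ, χ ∉ B → f χ = 0 := by
    intro χ hχ
    rw [← hfo χ (fun e => hχ (hEB χ e)) l0, h.supp l0 χ hχ]
  let W : Type u := {χ : IrrCharacter H // χ ∈ B ∧ χ ∉ E}
  haveI : Fintype W := Fintype.ofFinite W
  -- sums
  have hsE : ∀ l, ∑ χ ∈ E, a l χ = m * b0 + ε := by
    intro l
    rw [hE, Finset.sum_image (fun x _ y _ e => hψ e)]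
    have e1 : ∀ l', a l (ψ l') = b0 + ε * (if l' = l then 1 else 0) := by
      intro l'
      rw [ha l (ψ l'), hb l']
      congr 2
      by_cases h1 : l' = l
      · rw [if_pos h1, if_pos (by rw [h1])]
      · rw [if_neg h1, if_neg (fun e => h1 (hψ e))]
    rw [Finset.sum_congr rfl (fun l' _ => e1 l'), Finset.sum_add_distrib, Finset.sum_const,
      Finset.card_univ, nsmul_eq_mul, ← Finset.mul_sum, Finset.sum_ite_eq' Finset.univ l,
      if_pos (Finset.mem_univ l), mul_one]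
  have hcne0 : (m : ℤ) * b0 + ε ≠ 0 := by
    intro h1
    have h2 : (m : ℤ) ∣ ε := ⟨-b0, by linarith⟩
    have h3 : (m : ℤ) ∣ 1 := by rw [← hεε]; exact h2.mul_right ε
    have h4 : (m : ℤ) = 1 := Int.eq_one_of_dvd_one (by positivity) h3
    omega
  -- split of sums over the block
  have hsplit : ∀ (T : Type) [AddCommGroup T] (F : IrrCharacter H → T), (∀ χ, χ ∉ B → F χ = 0) →
      ∑ χ, F χ = ∑ χ ∈ E, F χ + ∑ w : W, F w.1 := by
    intro T _ F hF
    rw [← Finset.sum_add_sum_compl E F]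
    congr 1
    have e1 : ∑ w : W, F w.1 = ∑ χ, (if χ ∈ E then 0 else F χ) := by
      rw [← sum_sub (fun χ => χ ∈ B ∧ χ ∉ E) (fun χ => if χ ∈ E then 0 else F χ)]
      · refine Finset.sum_congr rfl fun w _ => ?_
        rw [if_neg w.2.2]
      · intro χ hχ
        by_cases h1 : χ ∈ E
        · rw [if_pos h1]
        · rw [if_neg h1, hF χ (fun e => hχ ⟨e, h1⟩)]
    rw [e1, ← Finset.sum_add_sum_compl E (fun χ => if χ ∈ E then 0 else F χ),
      Finset.sum_eq_zero (fun χ hχ => if_pos hχ), zero_add]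
    exact Finset.sum_congr rfl fun χ hχ => (if_neg (Finset.mem_compl.1 hχ)).symm
  -- regular values
  have hregE : ∀ l l' (g : H), ¬ p ∣ orderOf g → (ψ l : H → ℂ) g = (ψ l' : H → ℂ) g := by
    intro l l' g hg
    have h1 := h.rel l g hg
    have h2 := h.rel l' g hg
    have e1 : ∀ l, ∑ χ, (a l χ : ℂ) * (χ : H → ℂ) g = ∑ χ, (f χ : ℂ) * (χ : H → ℂ) g + ε * (ψ l : H → ℂ) g := by
      intro l
      have e2 : ∀ χ : IrrCharacter H, (a l χ : ℂ) * (χ : H → ℂ) g =
          (f χ : ℂ) * (χ : H → ℂ) g + (if χ = ψ l then (ε : ℂ) * (χ : H → ℂ) g else 0) := by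
        intro χ; rw [ha l χ]; split_ifs <;> push_cast <;> ring
      rw [Finset.sum_congr rfl (fun χ _ => e2 χ), Finset.sum_add_distrib,
        Finset.sum_ite_eq' Finset.univ (ψ l), if_pos (Finset.mem_univ _)]
    rw [e1] at h1 h2
    have hε' : (ε : ℂ) ≠ 0 := by exact_mod_cast hε0
    apply mul_left_cancel₀ hε'
    linear_combination h1 - h2
  have hsumE : ∀ g : H, ¬ p ∣ orderOf g → ∑ χ ∈ E, (χ : H → ℂ) g = m * (ψ l0 : H → ℂ) g := by
    intro g hg
    rw [hE, Finset.sum_image (fun x _ y _ e => hψ e), Finset.sum_congr rfl (fun l _ => hregE l l0 g hg),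
      Finset.sum_const, Finset.card_univ, nsmul_eq_mul]
  have hrel : ∀ g : H, ¬ p ∣ orderOf g → ((m : ℂ) * b0 + ε) * (ψ l0 : H → ℂ) g +
      ∑ w : W, (f w.1 : ℂ) * (w.1 : H → ℂ) g = 0 := by
    intro g hg
    rw [← h.rel l0 g hg, hsplit ℂ (fun χ => (a l0 χ : ℂ) * (χ : H → ℂ) g)
      (fun χ hχ => by rw [h.supp l0 χ hχ]; simp)]
    congr 1
    · have e1 : ∀ χ ∈ E, (a l0 χ : ℂ) * (χ : H → ℂ) g = (a l0 χ : ℂ) * (ψ l0 : H → ℂ) g := by
        intro χ hχ
        obtain ⟨l, rfl⟩ := (hEm χ).1 hχ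
        rw [hregE l l0 g hg]
      rw [Finset.sum_congr rfl e1, ← Finset.sum_mul]
      congr 1
      have := hsE l0
      rw [← Int.cast_sum, this]; push_cast; ring
    · refine Finset.sum_congr rfl fun w _ => ?_
      rw [hfo w.1 w.2.2 l0]
  have hWne : 1 ≤ Fintype.card W := by
    by_contra hlt
    have h1 : Fintype.card W = 0 := by omega
    haveI := Fintype.card_eq_zero_iff.1 h1
    have h2 := hrel 1 one_reg'
    rw [Finset.univ_eq_empty, Finset.sum_empty, add_zero] at h2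
    rcases mul_eq_zero.1 h2 with h3 | h3
    · apply hcne0; exact_mod_cast h3
    · exact CharBasic.irr_one_ne_zero (ψ l0).2 h3
  let F : Option W → Finset (IrrCharacter H) := fun o => o.elim E (fun w => {w.1})
  let c : Option W → ℤ := fun o => o.elim (m * b0 + ε) (fun w => f w.1)
  have hFB : ∀ v, ∀ χ ∈ F v, χ ∈ B := by
    intro v χ hχ
    cases v with
    | none => exact hEB χ hχ
    | some w =>
      rw [Finset.mem_singleton.1 hχ]; exact w.2.1
  have hFc : ∀ v l, ∑ χ ∈ F v, a l χ = c v := by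
    intro v l
    cases v with
    | none => exact hsE l
    | some w =>
      change ∑ χ ∈ ({w.1} : Finset (IrrCharacter H)), a l χ = f w.1
      rw [Finset.sum_singleton, hfo w.1 w.2.2 l]
  have hcW : Fintype.card (Option W) = Fintype.card W + 1 := Fintype.card_option
  refine ⟨Option W, inferInstance, inferInstance, F, c, ?_, ?_, ?_, by omega, ?_, ?_, ?_, ?_, ?_⟩
  · intro χ
    constructor
    · intro hχ
      by_cases h1 : χ ∈ E
      · exact ⟨none, h1⟩
      · exact ⟨some ⟨χ, hχ, h1⟩, Finset.mem_singleton_self _⟩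
    · rintro ⟨v, hv⟩; exact hFB v χ hv
  · intro v w χ h1 h2
    cases v with
    | none =>
      cases w with
      | none => rfl
      | some w =>
        exfalso
        have h3 : χ = w.1 := Finset.mem_singleton.1 h2
        exact w.2.2 (h3 ▸ h1)
    | some v =>
      have h3 : χ = v.1 := Finset.mem_singleton.1 h1
      cases w with
      | none => exact absurd (h3 ▸ h2) v.2.2
      | some w =>
        have h4 : χ = w.1 := Finset.mem_singleton.1 h2
        exact congrArg some (Subtype.ext (h3.symm.trans h4))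
  · intro v
    cases v with
    | none => exact ⟨ψ l0, (hEm _).2 ⟨l0, rfl⟩⟩
    | some w => exact Finset.singleton_nonempty _
  · intro v
    cases v with
    | none => exact hcne0
    | some w =>
      obtain ⟨l, hl⟩ := h.nz w.1 w.2.1
      rw [hfo w.1 w.2.2 l] at hl
      exact hl
  · intro v χ h1 θ h2 g hg
    cases v with
    | none =>
      obtain ⟨l, rfl⟩ := (hEm χ).1 h1
      obtain ⟨l', rfl⟩ := (hEm θ).1 h2
      exact hregE l l' g hg
    | some w =>
      have h3 : χ = w.1 := Finset.mem_singleton.1 h1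
      have h4 : θ = w.1 := Finset.mem_singleton.1 h2
      rw [h3, h4]
  · intro g hg
    rw [Fintype.sum_option]
    have hm0 : (m : ℂ) ≠ 0 := by exact_mod_cast (by omega : m ≠ 0)
    rw [← hrel g hg]
    congr 1
    · change (((m * b0 + ε : ℤ)) : ℂ) * ((E.card : ℂ))⁻¹ * ∑ χ ∈ E, (χ : H → ℂ) g = _
      rw [hsumE g hg, hEcard]
      push_cast
      field_simp
    · refine Finset.sum_congr rfl fun w _ => ?_
      change (f w.1 : ℂ) * ((({w.1} : Finset (IrrCharacter H)).card : ℂ))⁻¹ *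
        ∑ χ ∈ ({w.1} : Finset (IrrCharacter H)), (χ : H → ℂ) g = _
      rw [Finset.card_singleton, Finset.sum_singleton]; simp
  · intro v w g hg
    exact h.sing (hFB v) (hFB w) (hFc v) (hFc w) hg
  · rw [Fintype.sum_option, Fintype.sum_option, hcW]
    change ((E.card : ℕ) : ℤ) * ((m * b0 + ε) * (m * b0 + ε) + ∑ w : W, f w.1 * f w.1 - (m * b0 + ε) * (m * b0 + ε)) +
      ∑ v : W, ((({v.1} : Finset (IrrCharacter H)).card : ℕ) : ℤ) *
        ((m * b0 + ε) * (m * b0 + ε) + ∑ w : W, f w.1 * f w.1 - f v.1 * f v.1) ≤ _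
    rw [hEcard]
    set sg' : ℤ := ∑ w : W, f w.1 * f w.1 with hsg
    have e1 : ∑ v : W, ((({v.1} : Finset (IrrCharacter H)).card : ℕ) : ℤ) *
        ((m * b0 + ε) * (m * b0 + ε) + sg' - f v.1 * f v.1) =
        Fintype.card W * ((m * b0 + ε) * (m * b0 + ε) + sg') - sg' := by
      have e2 : ∀ v : W, ((({v.1} : Finset (IrrCharacter H)).card : ℕ) : ℤ) *
          ((m * b0 + ε) * (m * b0 + ε) + sg' - f v.1 * f v.1) =
          ((m * b0 + ε) * (m * b0 + ε) + sg') - f v.1 * f v.1 := by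
        intro v; rw [Finset.card_singleton]; push_cast; ring
      rw [Finset.sum_congr rfl (fun v _ => e2 v), Finset.sum_sub_distrib, Finset.sum_const,
        Finset.card_univ, nsmul_eq_mul]
    rw [e1]
    have hsge : sg' = e - m * b0 * b0 - 2 * ε * b0 := by
      have h1 := hsplit ℤ (fun χ => f χ * f χ) (fun χ hχ => by rw [hfB χ hχ, zero_mul])
      have h2 : ∑ χ ∈ E, f χ * f χ = m * (b0 * b0) := by
        rw [hE, Finset.sum_image (fun x _ y _ e => hψ e), Finset.sum_congr rfl (fun l _ => by rw [hb l]),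
          Finset.sum_const, Finset.card_univ, nsmul_eq_mul]
      rw [h2] at h1
      rw [hsg]
      linarith [hff]
    have hsg0 : 0 ≤ sg' := Finset.sum_nonneg fun w _ => mul_self_nonneg _
    have hm1 : (0 : ℤ) ≤ (m : ℤ) - 1 := by omega
    have hA : 0 ≤ ((m : ℤ) - 1) * sg' := mul_nonneg hm1 hsg0
    have hW1 : (1 : ℤ) ≤ Fintype.card W := by exact_mod_cast hWne
    have hB : ((m : ℤ) - 1) * sg' ≤ Fintype.card W * (((m : ℤ) - 1) * sg') := by nlinarith
    have key : ((e : ℤ) * m + 1) * Fintype.card W -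
        (m * sg' + (Fintype.card W * ((m * b0 + ε) * (m * b0 + ε) + sg') - sg')) =
        Fintype.card W * (((m : ℤ) - 1) * sg') - ((m : ℤ) - 1) * sg' := by
      rw [hsge]
      linear_combination (-(Fintype.card W : ℤ)) * hεε
    have e3 : (((e * m + 1 : ℕ) : ℤ)) * ((((Fintype.card W + 1 : ℕ) : ℤ)) - 1) =
        ((e : ℤ) * m + 1) * Fintype.card W := by push_cast; ring
    rw [e3]
    have e4 : (m : ℤ) * ((m * b0 + ε) * (m * b0 + ε) + sg' - (m * b0 + ε) * (m * b0 + ε)) = m * sg' := by ring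
    rw [e4]
    linarith

theorem CohData.star {B : Set (IrrCharacter H)} {L : Type v} [Fintype L] [DecidableEq L]
    {a : L → IrrCharacter H → ℤ} {e : ℕ} (h : CohData p B L a e) (l0 : L) :
    ∃ (V : Type u) (_ : Fintype V) (_ : DecidableEq V) (F : V → Finset (IrrCharacter H)) (c : V → ℤ),
      WStar p B F c (e * Fintype.card L + 1) := by
  by_cases hL : ∃ l1 : L, l1 ≠ l0
  · exact h.star_many l0 hL
  · push Not at hL
    exact h.star_one l0 hL

end Mk

end CfsgLib.Qb
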