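import Mathlib
import Cfsg.Agent.EqBase
import Cfsg.Agent.LibQb7

/-!
# Blocks with cyclic defect groups: local data, I (helper17)
-/

set_option autoImplicit false
set_option linter.unusedSectionVars false
set_option linter.style.haveILetI false
set_option linter.unusedSimpArgs false
set_option linter.unusedVariables false

namespace CfsgLib.Qb

open CfsgLib.CharInt hiding irr_isCharacter irr_classFun irr_one_ne_zero schur_scalar
open Cfsg CfsgLib.CharInt2 CfsgLib.CharBasic CfsgLib.BlockR CfsgLib.BlockCore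
  CfsgLib.BlockIdem CfsgLib.BlockIdeal CfsgLib.BlockConj CfsgLib.BlockBrauer CfsgLib.BlockInd
  CfsgLib.BlockFMT CfsgLib.BlockFMT2 CfsgLib.PLocalInd CfsgLib.BlockOrth CfsgLib.BlockDefect
  CfsgLib.BlockReg CfsgLib.BlockReg2 CfsgLib.BlockCount CfsgLib.BlockCount2 CfsgLib.BlockQP
  CfsgLib.BlockCov CfsgLib.BlockCov2 CfsgLib.BlockCov3 CfsgLib.BlockCov4 CfsgLib.BlockQuo
  CfsgLib.BlkS2 CfsgLib.BlockSec3
open scoped ComplexConjugate Pointwise

universe u v

/-- elements of order `p` in a cyclic group generate the same subgroup -/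
theorem cyc_mem {H : Type u} [Group H] [Finite H] {p : ℕ} (hp : p.Prime) {w z z' : H}
    (hz : orderOf z = p) (hz' : orderOf z' = p) (h : z ∈ Subgroup.zpowers w)
    (h' : z' ∈ Subgroup.zpowers w) : z ∈ Subgroup.zpowers z' := by
  rw [← mem_powers_iff_mem_zpowers] at h h'
  obtain ⟨i, rfl⟩ := h
  obtain ⟨j, rfl⟩ := h'
  have hn := orderOf_pos w
  have hpn : p ∣ orderOf w := by
    have h1 := orderOf_pow_dvd (x := w) i
    rw [show orderOf (w ^ i) = p from hz] at h1
    exact h1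
  obtain ⟨k, hk⟩ := hpn
  have hk0 : 0 < k := Nat.pos_of_ne_zero (by rintro rfl; omega)
  have key : ∀ i : ℕ, orderOf (w ^ i) = p → ∃ i', i = k * i' := by
    intro i hi
    have h1 : w ^ (i * p) = 1 := by
      rw [pow_mul, ← hi]; exact pow_orderOf_eq_one _
    have h2 := orderOf_dvd_of_pow_eq_one h1
    rw [hk, mul_comm i p] at h2
    exact (Nat.mul_dvd_mul_iff_left hp.pos).1 h2
  obtain ⟨i', hi'⟩ := key i hz
  obtain ⟨j', hj'⟩ := key j hz'
  have hwk : orderOf (w ^ k) = p := by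
    rw [orderOf_pow, hk, Nat.gcd_eq_right (Dvd.intro_left p rfl), Nat.mul_div_cancel _ hk0]
  have h1 : Subgroup.zpowers (w ^ j) = Subgroup.zpowers (w ^ k) := by
    apply Subgroup.eq_of_le_of_card_ge
    · rw [Subgroup.zpowers_le, hj', pow_mul]
      exact Subgroup.pow_mem _ (Subgroup.mem_zpowers _) _
    · rw [Nat.card_zpowers, Nat.card_zpowers, hwk, show orderOf (w ^ j) = p from hz']
  change w ^ i ∈ Subgroup.zpowers (w ^ j)
  rw [h1, hi', pow_mul]
  exact Subgroup.pow_mem _ (Subgroup.mem_zpowers _) _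

section Act
variable {M : Ideal AlgInt} {p : ℕ} [hpF : Fact p.Prime] {H : Type u} [Group H] [Fintype H]
variable {C : Subgroup H} [Fintype C]

theorem gramC (φ ψ : C → ℂ) :
    ∑ χ : IrrCharacter H, classInner (fun c : C => (χ : H → ℂ) c) φ *
      conj (classInner (fun c : C => (χ : H → ℂ) c) ψ) =
      (Nat.card C : ℂ)⁻¹ * (Nat.card C : ℂ)⁻¹ * ∑ t : H, ∑ c : C, conj (φ c) * ext0 C ψ (t * c * t⁻¹) := by
  classical
  have h1 : ∀ χ : IrrCharacter H, classInner (fun c : C => (χ : H → ℂ) c) φ *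
      conj (classInner (fun c : C => (χ : H → ℂ) c) ψ) =
      (Nat.card C : ℂ)⁻¹ * (Nat.card C : ℂ)⁻¹ * ∑ c : C, ∑ c' : C, (conj (φ c) * ψ c') *
        ((χ : H → ℂ) c * conj ((χ : H → ℂ) c')) := by
    intro χ
    unfold classInner
    rw [map_mul, map_inv₀, map_natCast, map_sum]
    rw [mul_mul_mul_comm, Finset.sum_mul_sum]
    congr 1
    refine Finset.sum_congr rfl fun c _ => Finset.sum_congr rfl fun c' _ => ?_
    rw [map_mul, Complex.conj_conj]; ring
  rw [Finset.sum_congr rfl (fun χ _ => h1 χ), ← Finset.mul_sum]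
  congr 1
  rw [Finset.sum_comm]
  rw [Finset.sum_comm (s := (Finset.univ : Finset H))]
  refine Finset.sum_congr rfl fun c _ => ?_
  rw [Finset.sum_comm]
  have hcc : ∀ g h : H, ∑ χ : IrrCharacter H, (χ : H → ℂ) g * conj ((χ : H → ℂ) h) =
      ∑ t : H, if t * g * t⁻¹ = h then (1 : ℂ) else 0 := by
    intro g h
    rw [column_orthogonality]
    have h1 := card_transporter (x := g) (z := h)
    rw [Finset.sum_boole, h1]
    by_cases hc : IsConj g h
    · rw [if_pos hc, cInd_of hc, mul_one]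
    · rw [if_neg hc, cInd_not hc, mul_zero]
  have h2 : ∀ c' : C, ∑ χ : IrrCharacter H, (conj (φ c) * ψ c') * ((χ : H → ℂ) c * conj ((χ : H → ℂ) c')) =
      ∑ t : H, (conj (φ c) * ψ c') * (if t * (c : H) * t⁻¹ = c' then (1 : ℂ) else 0) := by
    intro c'
    rw [← Finset.mul_sum, ← Finset.mul_sum, hcc]
  rw [Finset.sum_congr rfl (fun c' _ => h2 c'), Finset.sum_comm]
  refine Finset.sum_congr rfl fun t _ => ?_
  by_cases ht : t * (c : H) * t⁻¹ ∈ C
  · rw [ext0_mem ψ ht, Finset.sum_eq_single ⟨_, ht⟩]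
    · rw [if_pos rfl, mul_one]
    · intro c' _ hne
      rw [if_neg, mul_zero]
      intro h; exact hne (Subtype.ext h.symm)
    · intro h; exact absurd (Finset.mem_univ _) h
  · rw [ext0_not ψ ht, mul_zero]
    refine Finset.sum_eq_zero fun c' _ => ?_
    rw [if_neg, mul_zero]
    intro h; exact ht (h ▸ c'.2)

/-- conjugation on a normalized subgroup -/
def cj {t : H} (ht : t ∈ Subgroup.normalizer (C : Set H)) : C ≃* C where
  toFun c := ⟨t * c * t⁻¹, (Subgroup.mem_normalizer_iff.1 ht c).1 c.2⟩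
  invFun c := ⟨t⁻¹ * c * t, by
    have := (Subgroup.mem_normalizer_iff.1 (Subgroup.inv_mem _ ht) c).1 c.2
    rwa [inv_inv] at this⟩
  left_inv c := by apply Subtype.ext; simp only; group
  right_inv c := by apply Subtype.ext; simp only; group
  map_mul' a b := by apply Subtype.ext; simp only [Subgroup.coe_mul]; group

theorem cj_coe {t : H} (ht : t ∈ Subgroup.normalizer (C : Set H)) (c : C) :
    (cj ht c : H) = t * c * t⁻¹ := rfl

/-- the conjugate character -/
def act {t : H} (ht : t ∈ Subgroup.normalizer (C : Set H)) (ξ : IrrCharacter C) : IrrCharacter C :=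
  ⟨fun c => (ξ : C → ℂ) (cj ht c), isIrrCharacter_comp_equiv ξ.2 (cj ht)⟩

theorem act_apply {t : H} (ht : t ∈ Subgroup.normalizer (C : Set H)) (ξ : IrrCharacter C) (c : C) :
    (act ht ξ : C → ℂ) c = (ξ : C → ℂ) (cj ht c) := rfl

theorem act_act {t s : H} (ht : t ∈ Subgroup.normalizer (C : Set H))
    (hs : s ∈ Subgroup.normalizer (C : Set H)) (hts : t * s ∈ Subgroup.normalizer (C : Set H))
    (ξ : IrrCharacter C) : act hs (act ht ξ) = act hts ξ := by
  apply Subtype.ext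
  funext c
  change (ξ : C → ℂ) (cj ht (cj hs c)) = (ξ : C → ℂ) (cj hts c)
  refine congrArg (ξ : C → ℂ) (Subtype.ext ?_)
  rw [cj_coe, cj_coe, cj_coe]; group

theorem act_of_mem {t : H} (htC : t ∈ C) (ht : t ∈ Subgroup.normalizer (C : Set H))
    (ξ : IrrCharacter C) : act ht ξ = ξ := by
  apply Subtype.ext
  funext c
  exact (irr_classFun ξ.2) c ⟨t, htC⟩

theorem act_inj {t : H} (ht : t ∈ Subgroup.normalizer (C : Set H)) {ξ ξ' : IrrCharacter C}
    (h : act ht ξ = act ht ξ') : ξ = ξ' := by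
  apply Subtype.ext
  funext c
  have h1 := congrArg (fun η : IrrCharacter C => (η : C → ℂ) ((cj ht).symm c)) h
  simp only [act_apply, MulEquiv.apply_symm_apply] at h1
  exact h1

theorem act_sameBlock {t : H} (ht : t ∈ Subgroup.normalizer (C : Set H)) {ξ ξ' : IrrCharacter C} :
    SameBlock M (act ht ξ : C → ℂ) (act ht ξ' : C → ℂ) ↔ SameBlock M (ξ : C → ℂ) (ξ' : C → ℂ) := by
  have h0 : ∀ (η : IrrCharacter C) (c : C), centralChar (act ht η : C → ℂ) c =
      centralChar (η : C → ℂ) (cj ht c) := fun η c =>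
    centralChar_comp_equiv (cj ht) (η : C → ℂ) c
  constructor
  · intro h c
    have h1 := h ((cj ht).symm c)
    rw [h0, h0, MulEquiv.apply_symm_apply] at h1
    exact h1
  · intro h c
    rw [h0, h0]
    exact h _

end Act

/-- local data of a block with cyclic defect group -/
structure Loc (p : ℕ) (M : Ideal AlgInt) {H : Type u} [Group H] [Fintype H] (z : H) (C : Subgroup H)
    [Fintype C] (f : Set (IrrCharacter C)) (B : Set (IrrCharacter H)) (T : Subgroup H) : Prop where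
  hM : IsPModular p M
  hz : orderOf z = p
  hC : ∀ c, c ∈ C ↔ c * z = z * c
  hf : IsPBlock M f
  hB : IsPBlock M B
  reg : ∀ ξ ∈ f, ∀ ξ' ∈ f, ∀ g : C, ¬ p ∣ orderOf g → (ξ : C → ℂ) g = (ξ' : C → ℂ) g
  van : ∀ ξ ∈ f, ∀ g : C, p ∣ orderOf g → (ξ : C → ℂ) g ≠ 0 → ∀ u : C, IsPPart p g u →
    z ∈ Subgroup.zpowers (u : H)
  sup : ∀ χ : IrrCharacter H, χ ∉ B → ∀ ξ ∈ f, ∀ ξ' ∈ f,
    classInner (fun c : C => (χ : H → ℂ) c) (ξ : C → ℂ) =
      classInner (fun c : C => (χ : H → ℂ) c) (ξ' : C → ℂ)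
  hT : ∀ t, t ∈ T ↔ t ∈ Subgroup.normalizer (Subgroup.zpowers z : Set H) ∧ StabilizesBlock C f t
  rank : blockRank p f = 1
  two : 1 < Nat.card f
  dim : (Nat.card B - blockRank p B) * C.relIndex T = Nat.card f - 1

namespace Loc
variable {M : Ideal AlgInt} {p : ℕ} [hpF : Fact p.Prime] {H : Type u} [Group H] [Fintype H]
  {z : H} {C : Subgroup H} [Fintype C] {f : Set (IrrCharacter C)} {B : Set (IrrCharacter H)}
  {T : Subgroup H}

theorem conj_pow {t : H} (ht : t ∈ Subgroup.normalizer (Subgroup.zpowers z : Set H)) :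
    ∃ a : ℕ, t * z * t⁻¹ = z ^ a := by
  have h1 : t * z * t⁻¹ ∈ Subgroup.zpowers z :=
    (Subgroup.mem_normalizer_iff.1 ht z).1 (Subgroup.mem_zpowers _)
  obtain ⟨a, ha⟩ := (mem_powers_iff_mem_zpowers (x := z)).2 h1
  exact ⟨a, ha.symm⟩

theorem mem_norm (h : Loc p M z C f B T) {t : H} (ht : t * z * t⁻¹ ∈ Subgroup.zpowers z) :
    t ∈ Subgroup.normalizer (Subgroup.zpowers z : Set H) := by
  apply mem_normalizer_of_map_conj (A := Subgroup.zpowers z)
  rw [MonoidHom.map_zpowers, Subgroup.zpowers_le]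
  exact ht

theorem norm_C (h : Loc p M z C f B T) {t : H}
    (ht : t ∈ Subgroup.normalizer (Subgroup.zpowers z : Set H)) :
    t ∈ Subgroup.normalizer (C : Set H) := by
  have key : ∀ s ∈ Subgroup.normalizer (Subgroup.zpowers z : Set H), ∀ c ∈ C, s * c * s⁻¹ ∈ C := by
    intro s hs c hc
    obtain ⟨b, hb⟩ := conj_pow (z := z) (Subgroup.inv_mem _ hs)
    rw [inv_inv] at hb
    rw [h.hC] at hc ⊢
    have h1 : c * (s⁻¹ * z * s) = (s⁻¹ * z * s) * c := by
      rw [hb]
      have : Commute c z := hc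
      exact this.pow_right b
    calc s * c * s⁻¹ * z = s * (c * (s⁻¹ * z * s)) * s⁻¹ := by group
      _ = s * ((s⁻¹ * z * s) * c) * s⁻¹ := by rw [h1]
      _ = _ := by group
  rw [Subgroup.mem_normalizer_iff]
  intro c
  refine ⟨key t ht c, fun hc => ?_⟩
  have h1 := key t⁻¹ (Subgroup.inv_mem _ ht) _ hc
  have h2 : t⁻¹ * (t * c * t⁻¹) * t⁻¹⁻¹ = c := by group
  rwa [h2] at h1

theorem C_norm (h : Loc p M z C f B T) : C ≤ Subgroup.normalizer (Subgroup.zpowers z : Set H) := by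
  intro c hc
  apply h.mem_norm
  rw [(h.hC c).1 hc, mul_inv_cancel_right]
  exact Subgroup.mem_zpowers z

theorem T_norm (h : Loc p M z C f B T) {t : H} (ht : t ∈ T) :
    t ∈ Subgroup.normalizer (Subgroup.zpowers z : Set H) := ((h.hT t).1 ht).1

theorem act_mem (h : Loc p M z C f B T) {t : H} (ht : t ∈ T) {ξ : IrrCharacter C} (hξ : ξ ∈ f) :
    act (h.norm_C (h.T_norm ht)) ξ ∈ f := by
  obtain ⟨χ', h1, h2⟩ := ((h.hT t⁻¹).1 (T.inv_mem ht)).2.2 ξ hξ
  have h3 : act (h.norm_C (h.T_norm ht)) ξ = χ' := by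
    apply Subtype.ext
    funext c
    rw [act_apply]
    refine (h2 _ _ ?_).symm
    rw [cj_coe, inv_inv]; group
  rw [h3]; exact h1

theorem mem_T (h : Loc p M z C f B T) {t : H}
    (ht : t ∈ Subgroup.normalizer (Subgroup.zpowers z : Set H)) {ξ : IrrCharacter C} (hξ : ξ ∈ f)
    (hact : act (h.norm_C ht) ξ ∈ f) : t ∈ T := by
  have hp := isPrime_of_modular h.hM
  rw [h.hT]
  refine ⟨ht, h.norm_C ht, fun χ hχ => ?_⟩
  -- the preimage of `χ`
  have hti := Subgroup.inv_mem _ ht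
  refine ⟨act (h.norm_C hti) χ, ?_, ?_⟩
  · have h1 : SameBlock M (act (h.norm_C ht) ξ : C → ℂ) (χ : C → ℂ) := sameBlock_of_mem hp h.hf hact hχ
    have h2 := (act_sameBlock (M := M) (h.norm_C hti)).2 h1
    have h3 : act (h.norm_C hti) (act (h.norm_C ht) ξ) = ξ := by
      rw [act_act (h.norm_C ht) (h.norm_C hti) (by rw [mul_inv_cancel]; exact Subgroup.one_mem _)]
      exact act_of_mem (by rw [mul_inv_cancel]; exact C.one_mem) _ _
    rw [h3] at h2
    exact mem_of_sameBlock hp h.hf hξ h2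
  · intro k k' hk
    rw [act_apply]
    refine congrArg (χ : C → ℂ) (Subtype.ext ?_)
    rw [cj_coe, hk]; group

theorem C_le_T (h : Loc p M z C f B T) : C ≤ T := by
  obtain ⟨ξ, hξ⟩ := block_nonempty (isPrime_of_modular h.hM) h.hf
  intro c hc
  refine h.mem_T (h.C_norm hc) hξ ?_
  rw [act_of_mem hc]; exact hξ

/-- differences of members are supported on elements whose `p`-part meets `z` -/
theorem diff_van (h : Loc p M z C f B T) {ξ ξ' : IrrCharacter C} (hξ : ξ ∈ f) (hξ' : ξ' ∈ f) {g : C}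
    (hg : (ξ : C → ℂ) g - (ξ' : C → ℂ) g ≠ 0) {u : C} (hu : IsPPart p g u) :
    p ∣ orderOf g ∧ z ∈ Subgroup.zpowers (u : H) := by
  have h1 : p ∣ orderOf g := by
    by_contra hn
    apply hg
    rw [h.reg ξ hξ ξ' hξ' g hn, sub_self]
  refine ⟨h1, ?_⟩
  by_cases h2 : (ξ : C → ℂ) g = 0
  · rw [h2, zero_sub, neg_ne_zero] at hg
    exact h.van ξ' hξ' g h1 hg u hu
  · exact h.van ξ hξ g h1 h2 u hu

theorem conj_z_order (h : Loc p M z C f B T) (t : H) : orderOf (t * z * t⁻¹) = p := by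
  rw [orderOf_conj, h.hz]

theorem off_norm (h : Loc p M z C f B T) {ξ ξ' η η' : IrrCharacter C} (hξ : ξ ∈ f) (hξ' : ξ' ∈ f)
    (hη : η ∈ f) (hη' : η' ∈ f) {t : H}
    (ht : t ∉ Subgroup.normalizer (Subgroup.zpowers z : Set H)) (c : C) :
    conj ((ξ : C → ℂ) c - (ξ' : C → ℂ) c) *
      ext0 C ((η : C → ℂ) - (η' : C → ℂ)) (t * c * t⁻¹) = 0 := by
  by_contra hne
  rw [mul_eq_zero, not_or] at hne
  have h1 : (ξ : C → ℂ) c - (ξ' : C → ℂ) c ≠ 0 := fun e => hne.1 (by rw [e, map_zero])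
  have hmem : t * (c : H) * t⁻¹ ∈ C := by
    by_contra hn
    exact hne.2 (ext0_not _ hn)
  have h2 := hne.2
  rw [ext0_mem _ hmem] at h2
  obtain ⟨u, hu⟩ := isPPart_exists p c
  obtain ⟨u', hu'⟩ := isPPart_exists p (⟨t * (c : H) * t⁻¹, hmem⟩ : C)
  have h3 := h.diff_van hξ hξ' h1 hu
  have h4 := h.diff_van hη hη' h2 hu'
  -- `p`-parts in `H`
  have e1 : IsPPart p (c : H) (u : H) := by
    obtain ⟨x', hx', hc, ho, hr⟩ := hu
    refine ⟨(x' : H), ?_, ?_, ?_, ?_⟩
    · rw [← hx']; rfl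
    · exact congrArg (fun y : C => (y : H)) hc
    · obtain ⟨k, hk⟩ := ho; exact ⟨k, by rw [← hk, Subgroup.orderOf_coe]⟩
    · rw [Subgroup.orderOf_coe]; exact hr
  have e2 : IsPPart p (t * (c : H) * t⁻¹) (u' : H) := by
    obtain ⟨x', hx', hc, ho, hr⟩ := hu'
    refine ⟨(x' : H), ?_, ?_, ?_, ?_⟩
    · have := congrArg (fun y : C => (y : H)) hx'
      exact this
    · exact congrArg (fun y : C => (y : H)) hc
    · obtain ⟨k, hk⟩ := ho; exact ⟨k, by rw [← hk, Subgroup.orderOf_coe]⟩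
    · rw [Subgroup.orderOf_coe]; exact hr
  have e3 := isPPart_unique e2 (isPPart_conj e1 t)
  apply ht
  apply h.mem_norm
  apply cyc_mem hpF.out (w := (u' : H)) (h.conj_z_order t) h.hz ?_ h4.2
  rw [e3]
  obtain ⟨k, hk⟩ := h3.2
  refine ⟨k, ?_⟩
  dsimp only at hk ⊢
  rw [conj_zpow, hk]

end Loc

end CfsgLib.Qb
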