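import Mathlib
import Cfsg.Agent.EqBase
import Cfsg.Agent.LibQb8

/-!
# Blocks with cyclic defect groups: local data, II (helper17)
-/

set_option autoImplicit false
set_option linter.unusedSectionVars false
set_option linter.style.haveILetI false
set_option linter.unusedSimpArgs false
set_option linter.unusedVariables false

namespace CfsgLib.Qb

open CfsgLib.CharInt hiding irr_isCharacter irr_classFun irr_one_ne_zero schur_scalar
open Cfsg CfsgLib.CharInt2 CfsgLib.CharBasic CfsgLib.BlockR CfsgLib.BlockCore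
  CfsgLib.BlockIdem CfsgLib.BlockIdeal CfsgLib.BlockConj CfsgLib.BlockBrauer CfsgLib.BlockInd
  CfsgLib.BlockFMT CfsgLib.BlockFMT2 CfsgLib.PLocalInd CfsgLib.BlockOrth CfsgLib.BlockDefect
  CfsgLib.BlockReg CfsgLib.BlockReg2 CfsgLib.BlockCount CfsgLib.BlockCount2 CfsgLib.BlockQP
  CfsgLib.BlockCov CfsgLib.BlockCov2 CfsgLib.BlockCov3 CfsgLib.BlockCov4 CfsgLib.BlockQuo
  CfsgLib.BlkS2 CfsgLib.BlockSec3
open scoped ComplexConjugate Pointwise

universe u v

namespace Loc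
variable {M : Ideal AlgInt} {p : ℕ} [hpF : Fact p.Prime] {H : Type u} [Group H] [Fintype H]
  {z : H} {C : Subgroup H} [Fintype C] {f : Set (IrrCharacter C)} {B : Set (IrrCharacter H)}
  {T : Subgroup H}

theorem C_le (h : Loc p M z C f B T) : C ≤ T := h.C_le_T

theorem ppart_coe {c u : C} (hu : IsPPart p c u) : IsPPart p (c : H) (u : H) := by
  obtain ⟨x', hx', hc, ho, hr⟩ := hu
  refine ⟨(x' : H), ?_, ?_, ?_, ?_⟩
  · rw [← hx']; rfl
  · exact congrArg (fun y : C => (y : H)) hc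
  · obtain ⟨k, hk⟩ := ho; exact ⟨k, by rw [← hk, Subgroup.orderOf_coe]⟩
  · rw [Subgroup.orderOf_coe]; exact hr

/-- the sum of the fixed points -/
theorem fix_sum (h : Loc p M z C f B T) {t : H} (ht : t ∈ T) (htC : t ∉ C) :
    ∑ ξ : IrrCharacter C, ind f ξ *
      classInner (act (h.norm_C (h.T_norm ht)) ξ : C → ℂ) (ξ : C → ℂ) = 1 := by
  classical
  have hrank := blockRank_eq h.hM h.hf
  rw [h.rank, Nat.cast_one] at hrank
  rw [hrank]
  have key : ∀ F : IrrCharacter C → C → ℂ,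
      ∑ ξ : IrrCharacter C, ind f ξ * classInner (F ξ) (ξ : C → ℂ) =
        (Nat.card C : ℂ)⁻¹ * ∑ c : C, ∑ ξ : IrrCharacter C, ind f ξ * (F ξ c * conj ((ξ : C → ℂ) c)) := by
    intro F
    rw [Finset.sum_comm, Finset.mul_sum]
    refine Finset.sum_congr rfl fun ξ _ => ?_
    unfold classInner
    rw [← Finset.mul_sum]
    ring
  rw [key (fun ξ => (act (h.norm_C (h.T_norm ht)) ξ : C → ℂ)), key (fun ξ => BlockReg2.reg p (ξ : C → ℂ))]
  congr 1
  refine Finset.sum_congr rfl fun c _ => ?_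
  by_cases hc : p ∣ orderOf c
  · have h0 : ∑ ξ : IrrCharacter C, ind f ξ * (BlockReg2.reg p (ξ : C → ℂ) c * conj ((ξ : C → ℂ) c)) = 0 := by
      refine Finset.sum_eq_zero fun ξ _ => ?_
      rw [reg_not hc, zero_mul, mul_zero]
    rw [h0]
    by_cases hall : ∀ ξ ∈ f, (ξ : C → ℂ) c = 0
    · refine Finset.sum_eq_zero fun ξ _ => ?_
      by_cases hξ : ξ ∈ f
      · rw [hall ξ hξ, map_zero, mul_zero, mul_zero]
      · rw [ind_not hξ, zero_mul]
    · push Not at hall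
      obtain ⟨ξ1, hξ1, hne⟩ := hall
      obtain ⟨u, hu⟩ := isPPart_exists p c
      obtain ⟨u', hu'⟩ := isPPart_exists p (cj (h.norm_C (h.T_norm ht)) c)
      have hz : z ∈ Subgroup.zpowers (u : H) := h.van ξ1 hξ1 c hc hne u hu
      have hnc : ¬ IsConj u' u := by
        intro hcon
        rw [isConj_iff] at hcon
        obtain ⟨k, hk⟩ := hcon
        -- `p`-part of the conjugate
        have e1 : (u' : H) = t * (u : H) * t⁻¹ := by
          have a1 := ppart_coe hu'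
          rw [cj_coe] at a1
          exact isPPart_unique a1 (isPPart_conj (ppart_coe hu) t)
        have e2 : (k : H) * (t * u * t⁻¹) * (k : H)⁻¹ = u := by
          rw [← e1]
          exact congrArg (fun y : C => (y : H)) hk
        have e3 : ((k : H) * t) * u = u * ((k : H) * t) := by
          calc ((k : H) * t) * u = ((k : H) * (t * u * t⁻¹) * (k : H)⁻¹) * (k * t) := by group
            _ = _ := by rw [e2]
        have e4 : ((k : H) * t) * z = z * ((k : H) * t) := by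
          obtain ⟨j, hj⟩ := hz
          dsimp only at hj
          rw [← hj]
          have : Commute ((k : H) * t) (u : H) := e3
          exact this.zpow_right j
        have e5 : (k : H) * t ∈ C := (h.hC _).2 e4
        apply htC
        have e6 := C.mul_mem (C.inv_mem k.2) e5
        rwa [inv_mul_cancel_left] at e6
      have h3 := block_orth_conj h.hM h.hf hu' hu hnc
      rw [← sum_ind] at h3
      rw [← h3]
      rfl
  · refine Finset.sum_congr rfl fun ξ _ => ?_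
    by_cases hξ : ξ ∈ f
    · rw [reg_of hc, h.reg _ (h.act_mem ht hξ) ξ hξ c hc]
    · rw [ind_not hξ, zero_mul, zero_mul]

theorem fix_one (h : Loc p M z C f B T) {t : H} (ht : t ∈ T) (htC : t ∉ C) :
    ∃ ξ ∈ f, act (h.norm_C (h.T_norm ht)) ξ = ξ ∧
      ∀ ξ' ∈ f, act (h.norm_C (h.T_norm ht)) ξ' = ξ' → ξ' = ξ := by
  classical
  have h1 := h.fix_sum ht htC
  have h2 : ∀ ξ : IrrCharacter C, ind f ξ *
      classInner (act (h.norm_C (h.T_norm ht)) ξ : C → ℂ) (ξ : C → ℂ) =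
      if ξ ∈ f ∧ act (h.norm_C (h.T_norm ht)) ξ = ξ then 1 else 0 := by
    intro ξ
    rw [inner_irr]
    by_cases hξ : ξ ∈ f
    · rw [ind_of hξ, one_mul]
      by_cases h3 : act (h.norm_C (h.T_norm ht)) ξ = ξ
      · rw [if_pos h3, if_pos ⟨hξ, h3⟩]
      · rw [if_neg h3, if_neg (fun e => h3 e.2)]
    · rw [ind_not hξ, zero_mul, if_neg (fun e => hξ e.1)]
  rw [Finset.sum_congr rfl (fun ξ _ => h2 ξ), Finset.sum_boole] at h1
  have h3 : (Finset.univ.filter (fun ξ : IrrCharacter C => ξ ∈ f ∧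
      act (h.norm_C (h.T_norm ht)) ξ = ξ)).card = 1 := by exact_mod_cast h1
  obtain ⟨ξ, hξ⟩ := Finset.card_eq_one.1 h3
  have h4 : ∀ ξ' : IrrCharacter C, (ξ' ∈ f ∧ act (h.norm_C (h.T_norm ht)) ξ' = ξ') ↔ ξ' = ξ := by
    intro ξ'
    have h5 : ξ' ∈ Finset.univ.filter (fun ξ : IrrCharacter C => ξ ∈ f ∧
        act (h.norm_C (h.T_norm ht)) ξ = ξ) ↔ ξ' ∈ ({ξ} : Finset (IrrCharacter C)) := by rw [hξ]
    rw [Finset.mem_filter, Finset.mem_singleton] at h5
    simpa using h5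
  exact ⟨ξ, ((h4 ξ).2 rfl).1, ((h4 ξ).2 rfl).2, fun ξ' h5 h6 => (h4 ξ').1 ⟨h5, h6⟩⟩

/-- elements of the normalizer commute modulo the centralizer -/
theorem comm_mem (h : Loc p M z C f B T) {s t : H}
    (hs : s ∈ Subgroup.normalizer (Subgroup.zpowers z : Set H))
    (ht : t ∈ Subgroup.normalizer (Subgroup.zpowers z : Set H)) :
    (t * s)⁻¹ * (s * t) ∈ C := by
  obtain ⟨a, ha⟩ := conj_pow hs
  obtain ⟨b, hb⟩ := conj_pow ht
  have h1 : (s * t) * z * (s * t)⁻¹ = (t * s) * z * (t * s)⁻¹ := by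
    calc (s * t) * z * (s * t)⁻¹ = s * (t * z * t⁻¹) * s⁻¹ := by group
      _ = (s * z * s⁻¹) ^ b := by rw [hb, conj_pow']
      _ = (t * z * t⁻¹) ^ a := by rw [ha, hb, ← pow_mul, ← pow_mul, mul_comm]
      _ = t * (s * z * s⁻¹) * t⁻¹ := by rw [ha, conj_pow']
      _ = _ := by group
  rw [h.hC]
  calc (t * s)⁻¹ * (s * t) * z = (t * s)⁻¹ * ((s * t) * z * (s * t)⁻¹) * (s * t) := by group
    _ = (t * s)⁻¹ * ((t * s) * z * (t * s)⁻¹) * (s * t) := by rw [h1]
    _ = _ := by group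
where
  conj_pow' {s z : H} {b : ℕ} : s * z ^ b * s⁻¹ = (s * z * s⁻¹) ^ b := by
    rw [conj_pow_aux]
  conj_pow_aux {s z : H} {b : ℕ} : s * z ^ b * s⁻¹ = (s * z * s⁻¹) ^ b := by
    induction b with
    | zero => simp
    | succ n ih => rw [pow_succ, pow_succ, ← ih]; group

/-- the common fixed point -/
theorem base (h : Loc p M z C f B T) :
    ∃ χ0 ∈ f, ∀ t (ht : t ∈ T), act (h.norm_C (h.T_norm ht)) χ0 = χ0 := by
  by_cases hTC : ∃ t ∈ T, t ∉ C
  · obtain ⟨t0, ht0, ht0C⟩ := hTC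
    obtain ⟨χ0, hχ0, hfix, huniq⟩ := h.fix_one ht0 ht0C
    refine ⟨χ0, hχ0, fun t ht => ?_⟩
    apply huniq _ (h.act_mem ht hχ0)
    have e1 := act_act (h.norm_C (h.T_norm ht)) (h.norm_C (h.T_norm ht0))
      (h.norm_C (h.T_norm (T.mul_mem ht ht0))) χ0
    have e2 := act_act (h.norm_C (h.T_norm ht0)) (h.norm_C (h.T_norm ht))
      (h.norm_C (h.T_norm (T.mul_mem ht0 ht))) χ0
    rw [e1]
    rw [hfix] at e2
    rw [e2]
    have hc := h.comm_mem (h.T_norm ht) (h.T_norm ht0)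
    have hcn : (t0 * t)⁻¹ * (t * t0) ∈ Subgroup.normalizer (C : Set H) := h.norm_C (h.C_norm hc)
    have h4 : t * t0 = (t0 * t) * ((t0 * t)⁻¹ * (t * t0)) := by group
    have e3 := act_act (h.norm_C (h.T_norm (T.mul_mem ht0 ht))) hcn
      (by rw [← h4]; exact h.norm_C (h.T_norm (T.mul_mem ht ht0))) χ0
    rw [act_of_mem hc] at e3
    rw [e3]
    apply Subtype.ext
    funext c
    rw [act_apply, act_apply]
    refine congrArg (χ0 : C → ℂ) (Subtype.ext ?_)
    rw [cj_coe, cj_coe, ← h4]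
  · push Not at hTC
    obtain ⟨ξ, hξ⟩ := block_nonempty (isPrime_of_modular h.hM) h.hf
    exact ⟨ξ, hξ, fun t ht => act_of_mem (hTC t ht) _ _⟩

theorem stab_mem (h : Loc p M z C f B T) {χ0 : IrrCharacter C} (h0 : χ0 ∈ f)
    (hfix : ∀ t (ht : t ∈ T), act (h.norm_C (h.T_norm ht)) χ0 = χ0) {ξ : IrrCharacter C}
    (hξ : ξ ∈ f) (hne : ξ ≠ χ0) {t : H} (ht : t ∈ T) (hs : act (h.norm_C (h.T_norm ht)) ξ = ξ) :
    t ∈ C := by
  by_contra htC
  obtain ⟨ξ1, -, -, hu⟩ := h.fix_one ht htC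
  exact hne ((hu ξ hξ hs).trans (hu χ0 h0 (hfix t ht)).symm)

/-- the action of `T` -/
def ac (h : Loc p M z C f B T) (t : T) (ξ : IrrCharacter C) : IrrCharacter C :=
  act (h.norm_C (h.T_norm t.2)) ξ

theorem ac_mem (h : Loc p M z C f B T) (t : T) {ξ : IrrCharacter C} (hξ : ξ ∈ f) : h.ac t ξ ∈ f :=
  h.act_mem t.2 hξ

theorem ac_mul (h : Loc p M z C f B T) (t s : T) (ξ : IrrCharacter C) :
    h.ac s (h.ac t ξ) = h.ac (t * s) ξ :=
  act_act (h.norm_C (h.T_norm t.2)) (h.norm_C (h.T_norm s.2)) (h.norm_C (h.T_norm (t * s).2)) ξ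

theorem ac_C (h : Loc p M z C f B T) {t : T} (ht : (t : H) ∈ C) (ξ : IrrCharacter C) :
    h.ac t ξ = ξ := act_of_mem ht _ ξ

theorem ac_inj (h : Loc p M z C f B T) {t : T} {ξ ξ' : IrrCharacter C} (he : h.ac t ξ = h.ac t ξ') :
    ξ = ξ' := act_inj _ he

theorem ac_one (h : Loc p M z C f B T) (ξ : IrrCharacter C) : h.ac 1 ξ = ξ :=
  h.ac_C (by rw [Subgroup.coe_one]; exact C.one_mem) ξ

theorem ac_inv_left (h : Loc p M z C f B T) (t : T) (ξ : IrrCharacter C) :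
    h.ac t (h.ac t⁻¹ ξ) = ξ := by rw [h.ac_mul, inv_mul_cancel, h.ac_one]

theorem ac_inv_right (h : Loc p M z C f B T) (t : T) (ξ : IrrCharacter C) :
    h.ac t⁻¹ (h.ac t ξ) = ξ := by rw [h.ac_mul, mul_inv_cancel, h.ac_one]

theorem card_T (h : Loc p M z C f B T) : Nat.card T = C.relIndex T * Nat.card C := by
  have h1 := Subgroup.relIndex_mul_relIndex (⊥ : Subgroup H) C T bot_le h.C_le_T
  rw [Subgroup.relIndex_bot_left, Subgroup.relIndex_bot_left] at h1
  rw [← h1, mul_comm]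

theorem cnt (h : Loc p M z C f B T) {χ0 : IrrCharacter C} (h0 : χ0 ∈ f)
    (hfix : ∀ t, h.ac t χ0 = χ0) {ξ ξ' : IrrCharacter C}
    (hξ' : ξ' ∈ f) (hne : ξ' ≠ χ0) (hR : ∃ t, h.ac t ξ' = ξ) :
    Nat.card {t : T // h.ac t ξ' = ξ} = Nat.card C := by
  obtain ⟨t1, ht1⟩ := hR
  symm
  refine Nat.card_congr ?_
  refine
    { toFun := fun c => ⟨⟨c, h.C_le_T c.2⟩ * t1, ?_⟩
      invFun := fun t => ⟨(t.1 * t1⁻¹ : T), ?_⟩
      left_inv := fun c => ?_
      right_inv := fun t => ?_ }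
  · rw [← h.ac_mul, h.ac_C (t := ⟨c, h.C_le_T c.2⟩) c.2, ht1]
  · apply h.stab_mem h0 (fun t ht => hfix ⟨t, ht⟩) hξ' hne (t.1 * t1⁻¹ : T).2
    change h.ac (t.1 * t1⁻¹) ξ' = ξ'
    rw [← h.ac_mul, t.2, ← ht1, h.ac_inv_right]
  · apply Subtype.ext
    simp
  · apply Subtype.ext
    apply Subtype.ext
    simp

/-- the multiplicity of `ξ` in the restriction of `χ` -/
theorem mult_exists (χ : IrrCharacter H) (ξ : IrrCharacter C) :
    ∃ n : ℕ, classInner (fun c : C => (χ : H → ℂ) c) (ξ : C → ℂ) = n :=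
  char_mult (isCharacter_restrict (CharBasic.irr_isCharacter χ.2) C) (CharBasic.irr_isCharacter ξ.2)

end Loc

noncomputable def mu {H : Type u} [Group H] [Fintype H] {C : Subgroup H} [Fintype C]
    (χ : IrrCharacter H) (ξ : IrrCharacter C) : ℕ :=
  Classical.choose (Loc.mult_exists χ ξ)

noncomputable def aa {H : Type u} [Group H] [Fintype H] {C : Subgroup H} [Fintype C]
    (χ0 ξ : IrrCharacter C) (χ : IrrCharacter H) : ℤ := (mu χ ξ : ℤ) - mu χ χ0

section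
variable {H : Type u} [Group H] [Fintype H] {C : Subgroup H} [Fintype C]

theorem mu_spec (χ : IrrCharacter H) (ξ : IrrCharacter C) :
    classInner (fun c : C => (χ : H → ℂ) c) (ξ : C → ℂ) = mu χ ξ :=
  Classical.choose_spec (Loc.mult_exists χ ξ)

theorem aa_cast (χ0 ξ : IrrCharacter C) (χ : IrrCharacter H) :
    ((aa χ0 ξ χ : ℤ) : ℂ) = classInner (fun c : C => (χ : H → ℂ) c) ((ξ : C → ℂ) - (χ0 : C → ℂ)) := by
  rw [CharBasic.inner_sub_right, mu_spec, mu_spec]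
  unfold aa
  push_cast
  ring

end

namespace Loc
variable {M : Ideal AlgInt} {p : ℕ} [hpF : Fact p.Prime] {H : Type u} [Group H] [Fintype H]
  {z : H} {C : Subgroup H} [Fintype C] {f : Set (IrrCharacter C)} {B : Set (IrrCharacter H)}
  {T : Subgroup H}

open Classical in
theorem gram_term (h : Loc p M z C f B T) {χ0 : IrrCharacter C} (h0 : χ0 ∈ f)
    (hfix : ∀ t, h.ac t χ0 = χ0) {ξ ξ' : IrrCharacter C}
    (hξ : ξ ∈ f) (hne : ξ ≠ χ0) (hξ' : ξ' ∈ f) (hne' : ξ' ≠ χ0) (t : H) :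
    ∑ c : C, conj (((ξ : C → ℂ) - (χ0 : C → ℂ)) c) *
      ext0 C ((ξ' : C → ℂ) - (χ0 : C → ℂ)) (t * c * t⁻¹) =
    if ∃ ht : t ∈ T, h.ac ⟨t, ht⟩ ξ' = ξ then 2 * (Nat.card C : ℂ) else
      if t ∈ T then (Nat.card C : ℂ) else 0 := by
  classical
  have hC0 : (Nat.card C : ℂ) ≠ 0 := by exact_mod_cast Nat.card_pos.ne'
  by_cases htN : t ∈ Subgroup.normalizer (Subgroup.zpowers z : Set H)
  · have h1 : ∑ c : C, conj (((ξ : C → ℂ) - (χ0 : C → ℂ)) c) *
        ext0 C ((ξ' : C → ℂ) - (χ0 : C → ℂ)) (t * c * t⁻¹) =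
        (Nat.card C : ℂ) * classInner ((act (h.norm_C htN) ξ' : C → ℂ) - (act (h.norm_C htN) χ0 : C → ℂ))
          ((ξ : C → ℂ) - (χ0 : C → ℂ)) := by
      unfold classInner
      rw [← mul_assoc, mul_inv_cancel₀ hC0, one_mul]
      refine Finset.sum_congr rfl fun c _ => ?_
      rw [mul_comm]
      congr 1
      have hm : t * (c : H) * t⁻¹ ∈ C := (cj (h.norm_C htN) c).2
      rw [ext0_mem _ hm]
      rfl
    rw [h1, CharBasic.inner_sub_left, CharBasic.inner_sub_right, CharBasic.inner_sub_right, inner_irr, inner_irr, inner_irr,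
      inner_irr]
    by_cases htT : t ∈ T
    · have e1 : act (h.norm_C htN) χ0 = χ0 := hfix ⟨t, htT⟩
      have e2 : act (h.norm_C htN) ξ' ≠ χ0 := by
        intro e
        rw [← e1] at e
        apply hne'
        exact act_inj _ e
      rw [e1, if_neg e2, if_neg (Ne.symm hne), if_pos rfl]
      by_cases e3 : act (h.norm_C htN) ξ' = ξ
      · rw [if_pos e3, if_pos ⟨htT, e3⟩]; ring
      · rw [if_neg e3, if_neg (fun e => e3 e.2), if_pos htT]; ring
    · have e1 : ∀ η ∈ f, ∀ η' ∈ f, act (h.norm_C htN) η ≠ η' := by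
        intro η hη η' hη' e
        exact htT (h.mem_T htN hη (by rw [e]; exact hη'))
      rw [if_neg (e1 _ hξ' _ hξ), if_neg (e1 _ hξ' _ h0), if_neg (e1 _ h0 _ hξ), if_neg (e1 _ h0 _ h0),
        if_neg (fun e => htT e.1), if_neg htT]
      ring
  · have h1 : ∑ c : C, conj (((ξ : C → ℂ) - (χ0 : C → ℂ)) c) *
        ext0 C ((ξ' : C → ℂ) - (χ0 : C → ℂ)) (t * c * t⁻¹) = 0 :=
      Finset.sum_eq_zero (fun c _ => h.off_norm hξ h0 hξ' h0 htN c)
    rw [h1]
    rw [if_neg (fun e => htN (h.T_norm e.1)), if_neg (fun e => htN (h.T_norm e))]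

theorem gram_eq (h : Loc p M z C f B T) {χ0 : IrrCharacter C} (h0 : χ0 ∈ f)
    (hfix : ∀ t, h.ac t χ0 = χ0) {ξ ξ' : IrrCharacter C}
    (hξ : ξ ∈ f) (hne : ξ ≠ χ0) (hξ' : ξ' ∈ f) (hne' : ξ' ≠ χ0) [Decidable (∃ t, h.ac t ξ' = ξ)] :
    ∑ χ : IrrCharacter H, aa χ0 ξ χ * aa χ0 ξ' χ =
      (C.relIndex T : ℤ) + if ∃ t, h.ac t ξ' = ξ then 1 else 0 := by
  classical
  have hC0 : (Nat.card C : ℂ) ≠ 0 := by exact_mod_cast Nat.card_pos.ne'
  have h1 := gramC (C := C) ((ξ : C → ℂ) - (χ0 : C → ℂ)) ((ξ' : C → ℂ) - (χ0 : C → ℂ))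
  rw [Finset.sum_congr rfl (fun t _ => h.gram_term h0 hfix hξ hne hξ' hne' t)] at h1
  have h2 : ∑ t : H, (if ∃ ht : t ∈ T, h.ac ⟨t, ht⟩ ξ' = ξ then 2 * (Nat.card C : ℂ) else
      if t ∈ T then (Nat.card C : ℂ) else 0) =
      (Nat.card {t : T // h.ac t ξ' = ξ} : ℂ) * Nat.card C + (Nat.card T : ℂ) * Nat.card C := by
    have e1 : ∀ t : H, (if ∃ ht : t ∈ T, h.ac ⟨t, ht⟩ ξ' = ξ then 2 * (Nat.card C : ℂ) else
      if t ∈ T then (Nat.card C : ℂ) else 0) =
      (if ∃ ht : t ∈ T, h.ac ⟨t, ht⟩ ξ' = ξ then (1 : ℂ) else 0) * Nat.card C +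
        (if t ∈ T then (1 : ℂ) else 0) * Nat.card C := by
      intro t
      by_cases a : ∃ ht : t ∈ T, h.ac ⟨t, ht⟩ ξ' = ξ
      · rw [if_pos a, if_pos a, if_pos a.1]; ring
      · rw [if_neg a, if_neg a]; split_ifs <;> ring
    rw [Finset.sum_congr rfl (fun t _ => e1 t), Finset.sum_add_distrib, ← Finset.sum_mul,
      ← Finset.sum_mul, Finset.sum_boole, Finset.sum_boole]
    congr 2
    · norm_cast
      rw [← Nat.card_eq_finsetCard]
      refine Nat.card_congr ?_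
      refine
        { toFun := fun x => ⟨⟨x.1, ((Finset.mem_filter.1 x.2).2).1⟩, ((Finset.mem_filter.1 x.2).2).2⟩
          invFun := fun x => ⟨x.1.1, Finset.mem_filter.2 ⟨Finset.mem_univ _, x.1.2, x.2⟩⟩
          left_inv := fun x => rfl
          right_inv := fun x => rfl }
    · norm_cast
      rw [← Nat.card_eq_finsetCard]
      refine Nat.card_congr ?_
      refine
        { toFun := fun x => ⟨x.1, (Finset.mem_filter.1 x.2).2⟩
          invFun := fun x => ⟨x.1, Finset.mem_filter.2 ⟨Finset.mem_univ _, x.2⟩⟩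
          left_inv := fun x => rfl
          right_inv := fun x => rfl }
  rw [h2, h.card_T] at h1
  have h3 : ∑ χ : IrrCharacter H, (aa χ0 ξ χ : ℂ) * (aa χ0 ξ' χ : ℂ) =
      (C.relIndex T : ℂ) + if ∃ t, h.ac t ξ' = ξ then 1 else 0 := by
    have e1 : ∀ χ : IrrCharacter H, (aa χ0 ξ χ : ℂ) * (aa χ0 ξ' χ : ℂ) =
        classInner (fun c : C => (χ : H → ℂ) c) ((ξ : C → ℂ) - (χ0 : C → ℂ)) *
          conj (classInner (fun c : C => (χ : H → ℂ) c) ((ξ' : C → ℂ) - (χ0 : C → ℂ))) := by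
      intro χ
      rw [← aa_cast, ← aa_cast, map_intCast]
    rw [Finset.sum_congr rfl (fun χ _ => e1 χ), h1]
    by_cases hR : ∃ t, h.ac t ξ' = ξ
    · rw [if_pos hR, h.cnt h0 hfix hξ' hne' hR]
      push_cast
      field_simp
      ring
    · rw [if_neg hR]
      haveI : IsEmpty {t : T // h.ac t ξ' = ξ} := ⟨fun x => hR ⟨x.1, x.2⟩⟩
      rw [Nat.card_of_isEmpty (α := {t : T // h.ac t ξ' = ξ})]
      push_cast
      field_simp
      ring
  exact_mod_cast h3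

end Loc

end CfsgLib.Qb
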