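import Mathlib
import Cfsg.Agent.EqBase
import Cfsg.Agent.LibQb9

/-!
# Blocks with cyclic defect groups: coherent data from local data (helper17)
-/

set_option autoImplicit false
set_option linter.unusedSectionVars false
set_option linter.style.haveILetI false
set_option linter.unusedSimpArgs false
set_option linter.unusedVariables false

namespace CfsgLib.Qb

open CfsgLib.CharInt hiding irr_isCharacter irr_classFun irr_one_ne_zero schur_scalar
open Cfsg CfsgLib.CharInt2 CfsgLib.CharBasic CfsgLib.BlockR CfsgLib.BlockCore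
  CfsgLib.BlockIdem CfsgLib.BlockIdeal CfsgLib.BlockConj CfsgLib.BlockBrauer CfsgLib.BlockInd
  CfsgLib.BlockFMT CfsgLib.BlockFMT2 CfsgLib.PLocalInd CfsgLib.BlockOrth CfsgLib.BlockDefect
  CfsgLib.BlockReg CfsgLib.BlockReg2 CfsgLib.BlockCount CfsgLib.BlockCount2 CfsgLib.BlockQP
  CfsgLib.BlockCov CfsgLib.BlockCov2 CfsgLib.BlockCov3 CfsgLib.BlockCov4 CfsgLib.BlockQuo
  CfsgLib.BlkS2 CfsgLib.BlockSec3
open scoped ComplexConjugate Pointwise

universe u v

namespace Loc
variable {M : Ideal AlgInt} {p : ℕ} [hpF : Fact p.Prime] {H : Type u} [Group H] [Fintype H]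
  {z : H} {C : Subgroup H} [Fintype C] {f : Set (IrrCharacter C)} {B : Set (IrrCharacter H)}
  {T : Subgroup H}

theorem relIndex_pos (h : Loc p M z C f B T) : 0 < C.relIndex T := by
  have h1 := h.card_T
  have h2 : 0 < Nat.card T := Nat.card_pos
  rw [h1] at h2
  exact Nat.pos_of_mul_pos_right h2

theorem aa_eq_iff (h : Loc p M z C f B T) {χ0 : IrrCharacter C} (h0 : χ0 ∈ f)
    (hfix : ∀ t, h.ac t χ0 = χ0) {ξ ξ' : IrrCharacter C}
    (hξ : ξ ∈ f) (hne : ξ ≠ χ0) (hξ' : ξ' ∈ f) (hne' : ξ' ≠ χ0) :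
    (aa χ0 ξ' = aa χ0 ξ) ↔ ∃ t, h.ac t ξ' = ξ := by
  classical
  have h1 := h.gram_eq h0 hfix hξ hne hξ hne
  have h2 := h.gram_eq h0 hfix hξ' hne' hξ' hne'
  have h3 := h.gram_eq h0 hfix hξ hne hξ' hne'
  rw [if_pos ⟨1, h.ac_one ξ⟩] at h1
  rw [if_pos ⟨1, h.ac_one ξ'⟩] at h2
  constructor
  · intro he
    by_contra hR
    rw [if_neg hR, he, h1] at h3
    omega
  · intro hR
    rw [if_pos hR] at h3
    have h4 : ∑ χ : IrrCharacter H, (aa χ0 ξ' χ - aa χ0 ξ χ) ^ 2 = 0 := by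
      have e1 : ∀ χ : IrrCharacter H, (aa χ0 ξ' χ - aa χ0 ξ χ) ^ 2 =
          aa χ0 ξ' χ * aa χ0 ξ' χ + aa χ0 ξ χ * aa χ0 ξ χ - 2 * (aa χ0 ξ χ * aa χ0 ξ' χ) := by
        intro χ; ring
      rw [Finset.sum_congr rfl (fun χ _ => e1 χ), Finset.sum_sub_distrib, Finset.sum_add_distrib,
        ← Finset.mul_sum, h1, h2, h3]
      ring
    rw [Finset.sum_eq_zero_iff_of_nonneg (fun χ _ => sq_nonneg _)] at h4
    funext χ
    have h5 := h4 χ (Finset.mem_univ _)
    rw [sq_eq_zero_iff, sub_eq_zero] at h5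
    exact h5

open Classical in
/-- the non-fixed characters -/
noncomputable def X0 (f : Set (IrrCharacter C)) (χ0 : IrrCharacter C) : Finset (IrrCharacter C) :=
  Finset.univ.filter (fun ξ => ξ ∈ f ∧ ξ ≠ χ0)

theorem mem_X0 {χ0 ξ : IrrCharacter C} : ξ ∈ X0 f χ0 ↔ ξ ∈ f ∧ ξ ≠ χ0 := by
  classical
  unfold X0
  simp

theorem card_X0 {χ0 : IrrCharacter C} (h0 : χ0 ∈ f) : (X0 f χ0).card = Nat.card f - 1 := by
  classical
  have h1 : insert χ0 (X0 f χ0) = (Set.toFinite f).toFinset := by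
    ext ξ
    rw [Finset.mem_insert, mem_X0, Set.Finite.mem_toFinset]
    constructor
    · rintro (rfl | h)
      · exact h0
      · exact h.1
    · intro h
      by_cases he : ξ = χ0
      · exact Or.inl he
      · exact Or.inr ⟨h, he⟩
  have h2 := congrArg Finset.card h1
  have h3 : (Set.toFinite f).toFinset.card = Nat.card f := by
    rw [Nat.card_coe_set_eq, Set.ncard_eq_toFinset_card f]
  rw [Finset.card_insert_of_notMem (fun h => (mem_X0.1 h).2 rfl), h3] at h2
  omega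

open Classical in
theorem orbit_card (h : Loc p M z C f B T) {χ0 : IrrCharacter C} (h0 : χ0 ∈ f)
    (hfix : ∀ t, h.ac t χ0 = χ0) {ξ : IrrCharacter C} (hξ : ξ ∈ f) (hne : ξ ≠ χ0) :
    ((X0 f χ0).filter (fun ξ' => aa χ0 ξ' = aa χ0 ξ)).card = C.relIndex T := by
  haveI : Fintype T := Fintype.ofFinite T
  have h1 : (Finset.univ : Finset T).card = ∑ ξ' ∈ X0 f χ0,
      ((Finset.univ : Finset T).filter (fun t => h.ac t⁻¹ ξ = ξ')).card := by
    apply Finset.card_eq_sum_card_fiberwise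
    intro t _
    refine Finset.mem_coe.2 (mem_X0.2 ⟨h.ac_mem _ hξ, fun e => hne ?_⟩)
    have e1 := congrArg (h.ac t) e
    rw [h.ac_inv_left, hfix] at e1
    exact e1
  have h2 : ∀ ξ' ∈ X0 f χ0, ((Finset.univ : Finset T).filter (fun t => h.ac t⁻¹ ξ = ξ')).card =
      if aa χ0 ξ' = aa χ0 ξ then Nat.card C else 0 := by
    intro ξ' hξ'
    rw [mem_X0] at hξ'
    have e1 : ((Finset.univ : Finset T).filter (fun t => h.ac t⁻¹ ξ = ξ')).card =
        Nat.card {t : T // h.ac t ξ' = ξ} := by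
      rw [← Nat.card_eq_finsetCard]
      refine Nat.card_congr ?_
      refine
        { toFun := fun x => ⟨x.1, ?_⟩
          invFun := fun x => ⟨x.1, ?_⟩
          left_inv := fun x => rfl
          right_inv := fun x => rfl }
      · have e2 := congrArg (h.ac x.1) (Finset.mem_filter.1 x.2).2
        rw [h.ac_inv_left] at e2
        exact e2.symm
      · refine Finset.mem_filter.2 ⟨Finset.mem_univ _, ?_⟩
        have e2 := congrArg (h.ac x.1⁻¹) x.2
        rw [h.ac_inv_right] at e2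
        exact e2.symm
    rw [e1]
    by_cases hR : aa χ0 ξ' = aa χ0 ξ
    · rw [if_pos hR]
      exact h.cnt h0 hfix hξ'.1 hξ'.2 ((h.aa_eq_iff h0 hfix hξ hne hξ'.1 hξ'.2).1 hR)
    · rw [if_neg hR]
      haveI : IsEmpty {t : T // h.ac t ξ' = ξ} :=
        ⟨fun x => hR ((h.aa_eq_iff h0 hfix hξ hne hξ'.1 hξ'.2).2 ⟨x.1, x.2⟩)⟩
      exact Nat.card_of_isEmpty
  rw [Finset.sum_congr rfl h2, ← Finset.sum_filter, Finset.sum_const, smul_eq_mul,
    Finset.card_univ, ← Nat.card_eq_fintype_card, h.card_T] at h1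
  exact (Nat.eq_of_mul_eq_mul_right Nat.card_pos h1).symm

open Classical in
theorem card_L (h : Loc p M z C f B T) {χ0 : IrrCharacter C} (h0 : χ0 ∈ f)
    (hfix : ∀ t, h.ac t χ0 = χ0) :
    ((X0 f χ0).image (aa χ0)).card * C.relIndex T = Nat.card f - 1 := by
  have h1 := Finset.card_eq_sum_card_image (aa χ0) (X0 f χ0)
  have h2 : ∀ b ∈ (X0 f χ0).image (aa χ0), ((X0 f χ0).filter (fun ξ' => aa χ0 ξ' = b)).card =
      C.relIndex T := by
    intro b hb
    obtain ⟨ξ, hξ, rfl⟩ := Finset.mem_image.1 hb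
    rw [mem_X0] at hξ
    exact h.orbit_card h0 hfix hξ.1 hξ.2
  rw [Finset.sum_congr rfl h2, Finset.sum_const, smul_eq_mul, card_X0 h0] at h1
  exact h1.symm

theorem aa_supp (h : Loc p M z C f B T) {χ0 ξ : IrrCharacter C} (h0 : χ0 ∈ f) (hξ : ξ ∈ f)
    {χ : IrrCharacter H} (hχ : χ ∉ B) : aa χ0 ξ χ = 0 := by
  have h1 : ((aa χ0 ξ χ : ℤ) : ℂ) = 0 := by
    rw [aa_cast, CharBasic.inner_sub_right, h.sup χ hχ ξ hξ χ0 h0, sub_self]
  exact_mod_cast h1

theorem aa_rel (h : Loc p M z C f B T) {χ0 ξ : IrrCharacter C} (h0 : χ0 ∈ f) (hξ : ξ ∈ f)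
    {g : H} (hg : ¬ p ∣ orderOf g) : ∑ χ : IrrCharacter H, (aa χ0 ξ χ : ℂ) * (χ : H → ℂ) g = 0 := by
  classical
  have h1 : ∀ χ : IrrCharacter H, (aa χ0 ξ χ : ℂ) * (χ : H → ℂ) g =
      (Nat.card C : ℂ)⁻¹ * ∑ c : C, (((ξ : C → ℂ) - (χ0 : C → ℂ)) c) *
        ((χ : H → ℂ) g * conj ((χ : H → ℂ) c)) := by
    intro χ
    rw [← Complex.conj_conj ((aa χ0 ξ χ : ℤ) : ℂ), map_intCast, aa_cast]
    unfold classInner
    rw [map_mul, map_inv₀, map_natCast, map_sum, mul_assoc, Finset.sum_mul]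
    congr 1
    refine Finset.sum_congr rfl fun c _ => ?_
    rw [map_mul, Complex.conj_conj]; ring
  rw [Finset.sum_congr rfl (fun χ _ => h1 χ), ← Finset.mul_sum, Finset.sum_comm]
  rw [Finset.sum_eq_zero, mul_zero]
  intro c _
  rw [← Finset.mul_sum, column_orthogonality]
  by_cases hc : p ∣ orderOf c
  · rw [if_neg, mul_zero]
    intro hcon
    obtain ⟨k, hk⟩ := isConj_iff.1 hcon
    apply hg
    rw [← orderOf_conj g k, hk, Subgroup.orderOf_coe]
    exact hc
  · rw [Pi.sub_apply, h.reg ξ hξ χ0 h0 c hc, sub_self, zero_mul]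

end Loc

/-- the evaluation map of a block on the `p`-regular elements -/
noncomputable def Ev (p : ℕ) {H : Type u} [Group H] [Fintype H] (B : Set (IrrCharacter H))
    [Fintype B] : (B → ℂ) →ₗ[ℂ] (H → ℂ) :=
  Fintype.linearCombination ℂ (fun χ : B => pRegularPart p (χ.1 : H → ℂ))

section
variable {M : Ideal AlgInt} {p : ℕ} [hpF : Fact p.Prime] {H : Type u} [Group H] [Fintype H]
  {B : Set (IrrCharacter H)} [Fintype B]

theorem Ev_apply (X : B → ℂ) : Ev p B X = ∑ χ : B, X χ • BlockReg2.reg p (χ.1 : H → ℂ) := by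
  unfold Ev
  rw [Fintype.linearCombination_apply]
  refine Finset.sum_congr rfl fun χ _ => ?_
  rw [pRegularPart_eq]

theorem mem_ker_iff (X : B → ℂ) : X ∈ LinearMap.ker (Ev p B) ↔
    ∀ g : H, ¬ p ∣ orderOf g → ∑ χ : B, X χ * (χ.1 : H → ℂ) g = 0 := by
  rw [LinearMap.mem_ker, Ev_apply]
  constructor
  · intro h g hg
    have h1 := congrFun h g
    rw [Finset.sum_apply, Pi.zero_apply] at h1
    rw [← h1]
    refine Finset.sum_congr rfl fun χ _ => ?_
    rw [Pi.smul_apply, reg_of hg, smul_eq_mul]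
  · intro h
    funext g
    rw [Finset.sum_apply, Pi.zero_apply]
    by_cases hg : p ∣ orderOf g
    · refine Finset.sum_eq_zero fun χ _ => ?_
      rw [Pi.smul_apply, reg_not hg, smul_zero]
    · rw [← h g hg]
      refine Finset.sum_congr rfl fun χ _ => ?_
      rw [Pi.smul_apply, reg_of hg, smul_eq_mul]

theorem finrank_ker : Module.finrank ℂ (LinearMap.ker (Ev p B)) = Nat.card B - blockRank p B := by
  have h1 := LinearMap.finrank_range_add_finrank_ker (Ev p B)
  have h2 : Module.finrank ℂ (LinearMap.range (Ev p B)) = blockRank p B := by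
    unfold blockRank Ev
    rw [Fintype.range_linearCombination]
    have h3 : Set.range (fun χ : B => pRegularPart p (χ.1 : H → ℂ)) =
        (fun χ : IrrCharacter H => pRegularPart p (χ : H → ℂ)) '' B := by
      ext y
      constructor
      · rintro ⟨χ, rfl⟩; exact ⟨χ.1, χ.2, rfl⟩
      · rintro ⟨χ, hχ, rfl⟩; exact ⟨⟨χ, hχ⟩, rfl⟩
    rw [h3]
  rw [h2, Module.finrank_fintype_fun_eq_card, ← Nat.card_eq_fintype_card] at h1
  omega

theorem sing_mem_ker (hM : IsPModular p M) (hB : IsPBlock M B) {g : H} (hg : p ∣ orderOf g) :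
    (fun χ : B => (χ.1 : H → ℂ) g) ∈ LinearMap.ker (Ev p B) := by
  classical
  rw [mem_ker_iff]
  intro x hx
  have h1 := weak_block_orth hM hB hx (y := g⁻¹) (by rwa [orderOf_inv])
  rw [← sum_ind] at h1
  rw [sum_sub (fun χ => χ ∈ B) (fun χ => ind B χ * ((χ : H → ℂ) x * conj ((χ : H → ℂ) g⁻¹)))
    (fun χ hχ => by rw [ind_not hχ, zero_mul]) |>.symm] at h1
  rw [← h1]
  refine Finset.sum_congr rfl fun χ _ => ?_
  rw [ind_of χ.2, irr_inv χ.1.2, Complex.conj_conj]; ring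

/-- a family of the right size with Gram matrix `e J + I` spans the kernel -/
theorem gram_span {L : Type u} [Fintype L] [DecidableEq L] (a : L → IrrCharacter H → ℤ) (e : ℕ)
    (supp : ∀ l χ, χ ∉ B → a l χ = 0)
    (gram : ∀ l m, ∑ χ, a l χ * a m χ = e + if l = m then 1 else 0)
    (rel : ∀ l (g : H), ¬ p ∣ orderOf g → ∑ χ, (a l χ : ℂ) * (χ : H → ℂ) g = 0)
    (hcard : Fintype.card L = Nat.card B - blockRank p B) :
    Submodule.span ℂ (Set.range (fun l : L => fun χ : B => (a l χ.1 : ℂ))) = LinearMap.ker (Ev p B) := by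
  classical
  have hli : LinearIndependent ℂ (fun l : L => fun χ : B => (a l χ.1 : ℂ)) := by
    rw [Fintype.linearIndependent_iff]
    intro g hg
    have h1 : ∀ m : L, (e : ℂ) * (∑ l, g l) + g m = 0 := by
      intro m
      have e1 : ∑ χ : B, (∑ l, g l • (fun χ : B => (a l χ.1 : ℂ))) χ * (a m χ.1 : ℂ) = 0 := by
        rw [hg]; simp
      have e2 : ∑ χ : B, (∑ l, g l • (fun χ : B => (a l χ.1 : ℂ))) χ * (a m χ.1 : ℂ) =
          ∑ l, g l * ∑ χ : B, ((a l χ.1 : ℂ) * (a m χ.1 : ℂ)) := by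
        simp only [Finset.sum_apply, Pi.smul_apply, smul_eq_mul, Finset.sum_mul, Finset.mul_sum]
        rw [Finset.sum_comm]
        refine Finset.sum_congr rfl fun l _ => Finset.sum_congr rfl fun χ _ => ?_
        ring
      have e3 : ∀ l, ∑ χ : B, ((a l χ.1 : ℂ) * (a m χ.1 : ℂ)) = (e : ℂ) + if l = m then 1 else 0 := by
        intro l
        rw [sum_sub (fun χ => χ ∈ B) (fun χ => ((a l χ : ℂ) * (a m χ : ℂ)))
          (fun χ hχ => by rw [supp l χ hχ, Int.cast_zero, zero_mul])]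
        have := gram l m
        exact_mod_cast this
      rw [e2, Finset.sum_congr rfl (fun l _ => by rw [e3 l])] at e1
      simp only [mul_add, Finset.sum_add_distrib, mul_ite, mul_one, mul_zero,
        Finset.sum_ite_eq', Finset.mem_univ, if_true] at e1
      rw [← Finset.sum_mul, mul_comm] at e1
      exact e1
    intro i
    have h2 : ∑ m, ((e : ℂ) * (∑ l, g l) + g m) = 0 := Finset.sum_eq_zero fun m _ => h1 m
    rw [Finset.sum_add_distrib, Finset.sum_const, nsmul_eq_mul, Finset.card_univ] at h2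
    have h3 : ((Fintype.card L : ℂ) * e + 1) * (∑ l, g l) = 0 := by
      rw [← h2]; ring
    have h4 : ((Fintype.card L : ℂ) * e + 1) ≠ 0 := by
      have : ((Fintype.card L * e + 1 : ℕ) : ℂ) ≠ 0 := Nat.cast_ne_zero.2 (by omega)
      push_cast at this
      exact this
    have h5 := (mul_eq_zero.1 h3).resolve_left h4
    have h6 := h1 i
    rw [h5, mul_zero, zero_add] at h6
    exact h6
  apply Submodule.eq_of_le_of_finrank_eq
  · rw [Submodule.span_le]
    rintro _ ⟨l, rfl⟩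
    rw [SetLike.mem_coe, mem_ker_iff]
    intro g hg
    have := rel l g hg
    rw [← sum_sub (fun χ => χ ∈ B) (fun χ => ((a l χ : ℂ) * (χ : H → ℂ) g))
      (fun χ hχ => by rw [supp l χ hχ, Int.cast_zero, zero_mul])] at this
    exact this
  · rw [finrank_span_eq_card hli, finrank_ker, hcard]

theorem proj_of_gram (hM : IsPModular p M) (hB : IsPBlock M B)
    {L : Type u} [Fintype L] [DecidableEq L] (a : L → IrrCharacter H → ℤ) (e : ℕ)
    (supp : ∀ l χ, χ ∉ B → a l χ = 0)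
    (gram : ∀ l m, ∑ χ, a l χ * a m χ = e + if l = m then 1 else 0)
    (rel : ∀ l (g : H), ¬ p ∣ orderOf g → ∑ χ, (a l χ : ℂ) * (χ : H → ℂ) g = 0)
    (hcard : Fintype.card L = Nat.card B - blockRank p B)
    (X : IrrCharacter H → ℂ) (hX : ∀ χ, χ ∉ B → X χ = 0)
    (h0 : ∀ l, ∑ χ, X χ * (a l χ : ℂ) = 0) {g : H} (hg : p ∣ orderOf g) :
    ∑ χ, X χ * (χ : H → ℂ) g = 0 := by
  classical
  have h1 := sing_mem_ker hM hB hg
  rw [← gram_span a e supp gram rel hcard, Submodule.mem_span_range_iff_exists_fun] at h1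
  obtain ⟨c, hc⟩ := h1
  rw [← sum_sub (fun χ => χ ∈ B) (fun χ => (X χ * (χ : H → ℂ) g))
    (fun χ hχ => by rw [hX χ hχ, zero_mul])]
  have h2 : ∀ χ : B, X χ.1 * (χ.1 : H → ℂ) g = ∑ l, c l * (X χ.1 * (a l χ.1 : ℂ)) := by
    intro χ
    have := congrFun hc χ
    rw [← this, Finset.sum_apply, Finset.mul_sum]
    refine Finset.sum_congr rfl fun l _ => ?_
    rw [Pi.smul_apply, smul_eq_mul]; ring
  have h3 : ∑ χ : {χ // χ ∈ B}, X χ.1 * (χ.1 : H → ℂ) g = ∑ l, c l * ∑ χ : B, (X χ.1 * (a l χ.1 : ℂ)) := by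
    rw [Finset.sum_congr rfl (fun χ _ => h2 χ), Finset.sum_comm]
    refine Finset.sum_congr rfl fun l _ => ?_
    rw [Finset.mul_sum]
  rw [h3]
  refine Finset.sum_eq_zero fun l _ => ?_
  rw [sum_sub (fun χ => χ ∈ B) (fun χ => (X χ * (a l χ : ℂ)))
    (fun χ hχ => by rw [hX χ hχ, zero_mul]), h0 l, mul_zero]

theorem blockRank_singleton {χ : IrrCharacter H} : blockRank p ({χ} : Set (IrrCharacter H)) = 1 := by
  unfold blockRank
  rw [Set.image_singleton]
  apply finrank_span_singleton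
  intro h
  have h1 := congrFun h 1
  rw [pRegularPart_eq, reg_of one_reg', Pi.zero_apply] at h1
  exact CharBasic.irr_one_ne_zero χ.2 h1

theorem exists_sing (hM : IsPModular p M) (hB : IsPBlock M B)
    (hd : 0 < Nat.card B - blockRank p B) {χ : IrrCharacter H} (hχ : χ ∈ B) :
    ∃ g : H, p ∣ orderOf g ∧ (χ : H → ℂ) g ≠ 0 := by
  by_contra hcon
  push Not at hcon
  have hp := isPrime_of_modular hM
  have h1 := degree_of_vanish (irr_isCharacter χ.2) (irr_one_eq_charDegree χ.2) hcon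
  rw [Nat.Prime.pow_dvd_iff_le_factorization (Fact.out : p.Prime) (irr_charDegree_pos χ.2).ne'] at h1
  have h2 : (charDegree (χ : H → ℂ)).factorization p ≤ (Nat.card H).factorization p :=
    (Nat.factorization_le_iff_dvd (irr_charDegree_pos χ.2).ne' Nat.card_pos.ne').mpr
      (charDegree_dvd_card χ.2) p
  have h3 := defect_zero_block hM (le_antisymm h2 h1)
  have h4 : B = {χ} := by rw [← h3]; exact block_eq_blockOf hp hB hχ
  subst h4
  rw [blockRank_singleton, Nat.card_unique] at hd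
  omega

end

namespace Loc
variable {M : Ideal AlgInt} {p : ℕ} [hpF : Fact p.Prime] {H : Type u} [Group H] [Fintype H]
  {z : H} {C : Subgroup H} [Fintype C] {f : Set (IrrCharacter C)} {B : Set (IrrCharacter H)}
  {T : Subgroup H}

open Classical in
/-- the coherent data -/
theorem cohData (h : Loc p M z C f B T) {χ0 : IrrCharacter C} (h0 : χ0 ∈ f)
    (hfix : ∀ t, h.ac t χ0 = χ0) :
    CohData p B {l // l ∈ (X0 f χ0).image (aa (H := H) χ0)} (fun l χ => l.1 χ) (C.relIndex T) := by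
  haveI : Fintype B := Fintype.ofFinite B
  have hsupp : ∀ (l : {l // l ∈ (X0 f χ0).image (aa (H := H) χ0)}) χ, χ ∉ B → l.1 χ = 0 := by
    rintro ⟨l, hl⟩ χ hχ
    obtain ⟨ξ, hξ, rfl⟩ := Finset.mem_image.1 hl
    rw [mem_X0] at hξ
    exact h.aa_supp h0 hξ.1 hχ
  have hgram : ∀ l m : {l // l ∈ (X0 f χ0).image (aa (H := H) χ0)},
      ∑ χ, l.1 χ * m.1 χ = (C.relIndex T : ℤ) + if l = m then 1 else 0 := by
    rintro ⟨l, hl⟩ ⟨m, hm⟩
    obtain ⟨ξ, hξ, rfl⟩ := Finset.mem_image.1 hl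
    obtain ⟨ξ', hξ', rfl⟩ := Finset.mem_image.1 hm
    rw [mem_X0] at hξ hξ'
    rw [h.gram_eq h0 hfix hξ.1 hξ.2 hξ'.1 hξ'.2]
    congr 1
    have e1 := h.aa_eq_iff h0 hfix hξ.1 hξ.2 hξ'.1 hξ'.2
    by_cases hR : ∃ t, h.ac t ξ' = ξ
    · rw [if_pos hR, if_pos (Subtype.ext (e1.2 hR).symm)]
    · rw [if_neg hR, if_neg (fun e => hR (e1.1 (congrArg Subtype.val e).symm))]
  have hrel : ∀ (l : {l // l ∈ (X0 f χ0).image (aa (H := H) χ0)}) (g : H), ¬ p ∣ orderOf g →
      ∑ χ, (l.1 χ : ℂ) * (χ : H → ℂ) g = 0 := by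
    rintro ⟨l, hl⟩ g hg
    obtain ⟨ξ, hξ, rfl⟩ := Finset.mem_image.1 hl
    rw [mem_X0] at hξ
    exact h.aa_rel h0 hξ.1 hg
  have hcard : Fintype.card {l // l ∈ (X0 f χ0).image (aa (H := H) χ0)} = Nat.card B - blockRank p B := by
    have e1 := h.card_L h0 hfix
    rw [← h.dim] at e1
    rw [Fintype.card_coe]
    exact Nat.eq_of_mul_eq_mul_right h.relIndex_pos e1
  have hpos : 0 < Nat.card B - blockRank p B := by
    have e1 := h.dim
    have e2 := h.two
    by_contra hcon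
    have e3 : Nat.card B - blockRank p B = 0 := by omega
    rw [e3, zero_mul] at e1
    omega
  have hproj := fun X hX hX0 (g : H) (hg : p ∣ orderOf g) =>
    proj_of_gram h.hM h.hB (fun l : {l // l ∈ (X0 f χ0).image (aa (H := H) χ0)} => l.1) _ hsupp hgram hrel hcard
      X hX hX0 hg
  refine ⟨h.relIndex_pos, hsupp, hgram, hrel, hproj, ?_⟩
  intro χ hχ
  by_contra hcon
  push Not at hcon
  obtain ⟨g, hg, hne⟩ := exists_sing h.hM h.hB hpos hχ
  apply hne
  have h1 := hproj (fun ψ => if ψ = χ then 1 else 0) (fun ψ hψ => by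
    rw [if_neg]; rintro rfl; exact hψ hχ) (fun l => by
      rw [Finset.sum_eq_single χ]
      · rw [if_pos rfl, hcon l, Int.cast_zero, mul_zero]
      · intro ψ _ hψ; rw [if_neg hψ, zero_mul]
      · intro h; exact absurd (Finset.mem_univ _) h) g hg
  rw [Finset.sum_eq_single χ] at h1
  · rw [if_pos rfl, one_mul] at h1; exact h1
  · intro ψ _ hψ; rw [if_neg hψ, zero_mul]
  · intro h; exact absurd (Finset.mem_univ _) h

/-- a block with cyclic defect groups has a weighted star -/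
theorem star (h : Loc p M z C f B T) :
    ∃ (V : Type u) (_ : Fintype V) (_ : DecidableEq V) (F : V → Finset (IrrCharacter H)) (c : V → ℤ),
      WStar p B F c (Nat.card f) := by
  classical
  obtain ⟨χ0, h0, hfix⟩ := h.base
  have hfix' : ∀ t, h.ac t χ0 = χ0 := fun t => hfix t t.2
  have h1 := h.cohData h0 hfix'
  have h2 := h.card_L h0 hfix'
  have h3 := h.two
  have hne : ((X0 f χ0).image (aa (H := H) χ0)).Nonempty := by
    rw [← Finset.card_pos]
    by_contra hcon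
    have e3 : ((X0 f χ0).image (aa (H := H) χ0)).card = 0 := by omega
    rw [e3, zero_mul] at h2
    omega
  obtain ⟨l, hl⟩ := hne
  have h4 := h1.star ⟨l, hl⟩
  have h5 : C.relIndex T * Fintype.card {l // l ∈ (X0 f χ0).image (aa (H := H) χ0)} + 1 = Nat.card f := by
    rw [Fintype.card_coe, mul_comm, h2]
    omega
  rw [h5] at h4
  exact h4

end Loc

end CfsgLib.Qb
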