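import Mathlib
import Cfsg.Agent.EqBase
import Cfsg.Agent.LibQb10
import Cfsg.Agent.LibStar27

/-!
# Blocks with cyclic defect groups: existence of the local data (helper17)
-/

set_option autoImplicit false
set_option linter.unusedSectionVars false
set_option linter.style.haveILetI false
set_option linter.unusedSimpArgs false
set_option linter.unusedVariables false

namespace CfsgLib.Qb

open CfsgLib.CharInt hiding irr_isCharacter irr_classFun irr_one_ne_zero schur_scalar
open Cfsg CfsgLib.CharInt2 CfsgLib.CharBasic CfsgLib.BlockR CfsgLib.BlockCore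
  CfsgLib.BlockIdem CfsgLib.BlockIdeal CfsgLib.BlockConj CfsgLib.BlockBrauer CfsgLib.BlockInd
  CfsgLib.BlockFMT CfsgLib.BlockFMT2 CfsgLib.PLocalInd CfsgLib.BlockOrth CfsgLib.BlockDefect
  CfsgLib.BlockReg CfsgLib.BlockReg2 CfsgLib.BlockCount CfsgLib.BlockCount2 CfsgLib.BlockQP
  CfsgLib.BlockCov CfsgLib.BlockCov2 CfsgLib.BlockCov3 CfsgLib.BlockCov4 CfsgLib.BlockQuo
  CfsgLib.BlkS2 CfsgLib.BlockSec3
open scoped ComplexConjugate Pointwise

universe u v

section
variable {M : Ideal AlgInt} {p : ℕ} [hpF : Fact p.Prime] {H : Type u} [Group H] [Fintype H]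
  {z : H}

/-- constancy of multiplicities in local blocks not lying below the block of the character -/
theorem sup_of (hM : IsPModular p M) {C : Subgroup H} [Fintype C] {f : Set (IrrCharacter C)}
    {B : Set (IrrCharacter H)} (hind : IsInducedBlock M C f B)
    (hC : ∀ c, c ∈ C ↔ c * z = z * c)
    (reg : ∀ ξ ∈ f, ∀ ξ' ∈ f, ∀ g : C, ¬ p ∣ orderOf g → (ξ : C → ℂ) g = (ξ' : C → ℂ) g)
    (van : ∀ ξ ∈ f, ∀ g : C, p ∣ orderOf g → (ξ : C → ℂ) g ≠ 0 → ∀ u : C, IsPPart p g u →
      z ∈ Subgroup.zpowers (u : H)) {χ : IrrCharacter H} (hχ : χ ∉ B)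
    {ξ ξ' : IrrCharacter C} (hξ : ξ ∈ f) (hξ' : ξ' ∈ f) :
    classInner (fun c : C => (χ : H → ℂ) c) (ξ : C → ℂ) =
      classInner (fun c : C => (χ : H → ℂ) c) (ξ' : C → ℂ) := by
  classical
  set φ : C → ℂ := blockPart f (fun c : C => (χ : H → ℂ) c) with hφ
  have e1 : ∀ η ∈ f, classInner (fun c : C => (χ : H → ℂ) c) (η : C → ℂ) = classInner φ (η : C → ℂ) := by
    intro η hη
    rw [hφ, Star.ci_blockPart, ind_of hη, one_mul]
  rw [e1 ξ hξ, e1 ξ' hξ', ← sub_eq_zero, ← CharBasic.inner_sub_right]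
  unfold classInner
  rw [Finset.sum_eq_zero, mul_zero]
  intro c _
  have hcl : IsClassFunction C (fun c : C => (χ : H → ℂ) c) := fun g h =>
    CharBasic.irr_classFun χ.2 g h
  by_cases hc : p ∣ orderOf c
  · by_cases hz : (ξ : C → ℂ) c = 0 ∧ (ξ' : C → ℂ) c = 0
    · rw [Pi.sub_apply, hz.1, hz.2, sub_self, map_zero, mul_zero]
    · obtain ⟨u, hu⟩ := isPPart_exists p c
      have hzu : z ∈ Subgroup.zpowers (u : H) := by
        by_cases h1 : (ξ : C → ℂ) c = 0
        · exact van ξ' hξ' c hc (fun h2 => hz ⟨h1, h2⟩) u hu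
        · exact van ξ hξ c hc h1 u hu
      have h3 : φ c = 0 := by
        rw [hφ, ← sum_coeff_mul f hcl c]
        refine nagao hM hind (t := (c : H)) (z := (u : H)) c.2 (Loc.ppart_coe hu) ?_ hχ
        intro g hg
        rw [Subgroup.mem_centralizer_singleton_iff] at hg
        rw [hC]
        obtain ⟨k, hk⟩ := hzu
        dsimp only at hk
        rw [← hk]
        have : Commute g (u : H) := hg
        exact this.zpow_right k
      rw [h3, zero_mul]
  · rw [Pi.sub_apply, reg ξ hξ ξ' hξ' c hc, sub_self, map_zero, mul_zero]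

end

section Ex
open CfsgLib.BrP
variable {M : Ideal AlgInt} {p : ℕ} [hpF : Fact p.Prime] {H : Type u} [Group H] [Fintype H]

/-- the number of characters of a block with cyclic defect groups -/
theorem cyc_dim (hM : IsPModular p M) {B : Set (IrrCharacter H)} (hB : IsPBlock M B)
    {P : Subgroup H} (hPD : IsDefectGroup p M B P) (hcyc : IsCyclic P) (hP1 : P ≠ ⊥)
    {c : Set (IrrCharacter (Subgroup.centralizer (P : Set H)))}
    (hc : IsInducedBlock M (Subgroup.centralizer (P : Set H)) c B)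
    {T : Subgroup H} (hT : ∀ g : H, g ∈ T ↔ (g ∈ Subgroup.normalizer (P : Set H) ∧
      StabilizesBlock (Subgroup.centralizer (P : Set H)) c g)) :
    (Nat.card B - blockRank p B) * (Subgroup.centralizer (P : Set H)).relIndex T = Nat.card P - 1 := by
  classical
  haveI hPr : M.IsPrime := isPrime_of_modular hM
  haveI : M.IsMaximal := hM.2.1
  haveI := charP_kM hM
  haveI := Fintype.ofFinite P
  have hab := Star.cyc_comm hcyc
  have hmx := Star.ab_mx hM hB hPD hab hc
  have hTS := Star.ab_TS hM hc.1 hT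
  have hTN : T ≤ Subgroup.normalizer (P : Set H) := fun x hx => ((hT x).1 hx).1
  have hCPT : Subgroup.centralizer (P : Set H) ≤ T := by
    rw [hTS]
    have h := CH_le_TS hmx.1.1
    rwa [CH_top] at h
  have hfree : ∀ v ∈ P, v ≠ 1 → ∀ x ∈ T, x ∈ CH ⊤ (Subgroup.zpowers v) →
      x ∈ Subgroup.centralizer (P : Set H) := by
    intro v hv hv1 x hx hxC
    refine Star.cyc_free hM hB hPD hP1 hcyc hc hT x hx v hv hv1 ?_
    rw [Star.comm_of_C hxC, mul_inv_cancel_right]
  have hinter : ∀ v ∈ P, v ≠ 1 → T ⊓ CH ⊤ (Subgroup.zpowers v) =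
      Subgroup.centralizer (P : Set H) := by
    intro v hv hv1
    apply le_antisymm
    · rintro x ⟨h1, h2⟩; exact hfree v hv hv1 x h1 h2
    · refine le_inf hCPT ?_
      rw [CH_top]
      exact centralizer_anti (by rw [Subgroup.zpowers_le]; exact hv)
  set e := (Subgroup.centralizer (P : Set H)).relIndex T with he
  have hcT : Nat.card T = e * Nat.card (Subgroup.centralizer (P : Set H)) := by
    rw [he, Subgroup.relIndex, mul_comm,
      ← Nat.card_congr (Subgroup.subgroupOfEquivOfLe hCPT).toEquiv]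
    exact (Subgroup.card_mul_index _).symm
  have hT0 : (Nat.card T : ℂ) ≠ 0 := by exact_mod_cast Nat.card_pos.ne'
  have hwt : ∀ v : P, v ≠ 1 → Star.wt p P (J M P c) (v : H) = 1 / (e : ℂ) := by
    intro v hv1
    have hv1' : (v : H) ≠ 1 := fun h => hv1 (Subtype.ext h)
    rw [Star.wt_abel (g_blk hB) hmx hab v.2, Star.rank_local hM (g_blk hB) hmx hab v.2
      (by rw [← hTS]; exact hfree v v.2 hv1'), ← hTS, hinter v v.2 hv1', Nat.cast_one, mul_one]
    have h1 : (Nat.card T : ℂ) = e * Nat.card (Subgroup.centralizer (P : Set H)) := by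
      exact_mod_cast hcT
    rw [h1] at hT0 ⊢
    have h2 := left_ne_zero_of_mul hT0
    have h3 := right_ne_zero_of_mul hT0
    field_simp
  have h1 := Star.card_formula hM hB hmx
  rw [← Finset.add_sum_erase Finset.univ _ (Finset.mem_univ (1 : P)),
    Finset.sum_congr rfl (fun v hv => hwt v (Finset.ne_of_mem_erase hv)), Finset.sum_const,
    Finset.card_erase_of_mem (Finset.mem_univ _), Finset.card_univ,
    ← Nat.card_eq_fintype_card (α := P)] at h1
  have h2 : Star.wt p P (J M P c) ((1 : P) : H) = blockRank p B := Star.wt_one hB hmx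
  have he0 : (e : ℂ) ≠ 0 := by
    intro h0
    apply hT0
    rw [hcT, Nat.cast_mul, h0, zero_mul]
  rw [h2, nsmul_eq_mul] at h1
  have h3 : (Nat.card B : ℂ) * e = blockRank p B * e + (Nat.card P - 1 : ℕ) := by
    rw [h1]; field_simp
  have h4 : Nat.card B * e = blockRank p B * e + (Nat.card P - 1) := by exact_mod_cast h3
  rw [Nat.sub_mul]
  omega

/-- members of a block with cyclic defect group containing the central element `z` -/
theorem van_of (hM : IsPModular p M) {f : Set (IrrCharacter H)} (hf : IsPBlock M f)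
    {D : Subgroup H} (hD : IsDefectGroup p M f D) (hcyc : IsCyclic D) {z : H} (hz : z ∈ D)
    (hzo : orderOf z = p) (hcen : ∀ k : H, k * z = z * k) {ξ : IrrCharacter H} (hξ : ξ ∈ f)
    {g : H} (hg : p ∣ orderOf g) (hne : (ξ : H → ℂ) g ≠ 0) {u : H} (hu : IsPPart p g u) :
    z ∈ Subgroup.zpowers u := by
  classical
  have hp := isPrime_of_modular hM
  obtain ⟨E, hE, huE⟩ := mem_defect_of_ne_zero hM hu hne
  rw [← block_eq_blockOf hp hf hξ] at hE
  obtain ⟨x, hx⟩ := defectGroups_conj hM hf hD hE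
  rw [hx] at huE
  obtain ⟨d, hd, hdu⟩ := huE
  have hdu' : x * d * x⁻¹ = u := hdu
  have hu1 : u ≠ 1 := ppart_ne_one hu hg
  have hd1 : d ≠ 1 := by
    rintro rfl
    apply hu1
    rw [← hdu']; group
  -- a power of `d` of order `p`
  obtain ⟨k, hk⟩ : ∃ k, orderOf u = p ^ k := hu.choose_spec.2.2.1
  have hdk : orderOf d = p ^ k := by rw [← hk, ← hdu', BlockReg2.orderOf_conj]
  have hk0 : k ≠ 0 := by
    rintro rfl
    rw [pow_zero, orderOf_eq_one_iff] at hdk
    exact hd1 hdk
  have hdp : orderOf (d ^ (p ^ (k - 1))) = p := by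
    rw [orderOf_pow, hdk]
    have h1 : p ^ k = p ^ (k - 1) * p := by rw [← pow_succ]; congr 1; omega
    rw [h1, Nat.gcd_eq_right (Dvd.intro _ rfl), Nat.mul_div_cancel_left _ (pow_pos hpF.out.pos _)]
  obtain ⟨w, hw⟩ := hcyc.exists_generator
  have hmem : ∀ y ∈ D, y ∈ Subgroup.zpowers (w : H) := by
    intro y hy
    obtain ⟨j, hj⟩ := hw ⟨y, hy⟩
    refine ⟨j, ?_⟩
    have := congrArg (fun t : D => (t : H)) hj
    simpa using this
  have h2 := cyc_mem hpF.out (w := (w : H)) hzo hdp (hmem z hz) (hmem _ (D.pow_mem hd _))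
  have h3 : z ∈ Subgroup.zpowers d := by
    have : Subgroup.zpowers (d ^ (p ^ (k - 1))) ≤ Subgroup.zpowers d := by
      rw [Subgroup.zpowers_le]
      exact Subgroup.pow_mem _ (Subgroup.mem_zpowers _) _
    exact this h2
  obtain ⟨j, hj⟩ := h3
  dsimp only at hj
  refine ⟨j, ?_⟩
  dsimp only
  rw [← hdu', conj_zpow, hj, hcen, mul_inv_cancel_right]

/-- nilpotent blocks with abelian defect group -/
theorem nil_abel (hM : IsPModular p M) {f : Set (IrrCharacter H)}
    (hnil : IsNilpotentBlock p M f) {D : Subgroup H} (hD : IsDefectGroup p M f D)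
    (hab : ∀ a b : D, a * b = b * a) :
    Nat.card f = Nat.card D ∧ ∀ ξ ∈ f, ∀ ξ' ∈ f, ∀ g : H, ¬ p ∣ orderOf g →
      (ξ : H → ℂ) g = (ξ' : H → ℂ) g := by
  classical
  haveI : Fintype D := Fintype.ofFinite D
  obtain ⟨χ₀, hχ₀, -, Φ, hΦf, hΦi, hΦs, hΦr⟩ := Star.nil_main hM hnil hD
  have h1 : Nat.card f = Nat.card (IrrCharacter D) := by
    symm
    refine Nat.card_congr (Equiv.ofBijective (fun η => (⟨Φ η, hΦf η⟩ : f)) ⟨?_, ?_⟩)
    · intro a b h
      exact hΦi (congrArg Subtype.val h)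
    · rintro ⟨ψ, hψ⟩
      obtain ⟨η, hη⟩ := hΦs ψ hψ
      exact ⟨η, Subtype.ext hη⟩
  have h2 : Nat.card (IrrCharacter D) = Nat.card D := by
    have h1 := sum_sq_degree (G := D)
    have h2 : ∀ χ : IrrCharacter D, (χ : D → ℂ) 1 = 1 := fun χ => irr_degree_one_of_comm hab χ.2
    simp only [h2, one_pow] at h1
    rw [Finset.sum_const, nsmul_eq_mul, mul_one, Finset.card_univ, ← Nat.card_eq_fintype_card] at h1
    exact_mod_cast h1
  refine ⟨h1.trans h2, ?_⟩
  have key : ∀ ξ ∈ f, ∀ g : H, ¬ p ∣ orderOf g → (ξ : H → ℂ) g = (χ₀ : H → ℂ) g := by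
    intro ξ hξ g hg
    obtain ⟨η, rfl⟩ := hΦs ξ hξ
    rw [hΦr η g hg, irr_degree_one_of_comm hab η.2, one_mul]
  intro ξ hξ ξ' hξ' g hg
  rw [key ξ hξ g hg, key ξ' hξ' g hg]

/-- local data for blocks with cyclic defect groups -/
theorem loc_of (hM : IsPModular p M) {B : Set (IrrCharacter H)} (hB : IsPBlock M B)
    {P : Subgroup H} (hPD : IsDefectGroup p M B P) (hcyc : IsCyclic P) (hP1 : P ≠ ⊥)
    {c : Set (IrrCharacter (Subgroup.centralizer (P : Set H)))}
    (hc : IsInducedBlock M (Subgroup.centralizer (P : Set H)) c B)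
    {T : Subgroup H} (hT : ∀ g : H, g ∈ T ↔ (g ∈ Subgroup.normalizer (P : Set H) ∧
      StabilizesBlock (Subgroup.centralizer (P : Set H)) c g))
    {z : H} (hzP : z ∈ P) (hzo : orderOf z = p) {C : Subgroup H} [Fintype C]
    (hC : C = Subgroup.centralizer ((Subgroup.zpowers z : Subgroup H) : Set H))
    {f : Set (IrrCharacter C)} (hfB : IsInducedBlock M C f B)
    {T' : Subgroup H} (hT' : ∀ g : H, g ∈ T' ↔
      (g ∈ Subgroup.normalizer ((Subgroup.zpowers z : Subgroup H) : Set H) ∧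
        StabilizesBlock C f g))
    (hrel : C.relIndex T' = (Subgroup.centralizer (P : Set H)).relIndex T)
    (hrank : blockRank p f = 1) (hnil : IsNilpotentBlock p M f)
    (hPC : P ≤ C) (hdefC : IsDefectGroup p M f (P.subgroupOf C)) :
    Nat.card f = Nat.card P ∧ Loc p M z C f B T' := by
  classical
  have hab := Star.cyc_comm hcyc
  have habP : ∀ a b : P.subgroupOf C, a * b = b * a := by
    rintro ⟨a, ha⟩ ⟨b, hb⟩
    apply Subtype.ext
    apply Subtype.ext
    exact hab _ ha _ hb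
  obtain ⟨h1, hreg⟩ := nil_abel hM hnil hdefC habP
  have h2 : Nat.card (P.subgroupOf C) = Nat.card P :=
    Nat.card_congr (Subgroup.subgroupOfEquivOfLe hPC).toEquiv
  have hcardf : Nat.card f = Nat.card P := h1.trans h2
  have hmemC : ∀ c : H, c ∈ C ↔ c * z = z * c := by
    intro w
    rw [hC, Star.mem_centralizer_zpowers, eq_comm]
  have hzC : z ∈ C := hPC hzP
  haveI : IsCyclic (P.subgroupOf C) :=
    isCyclic_of_surjective (Subgroup.subgroupOfEquivOfLe hPC).symm
      (Subgroup.subgroupOfEquivOfLe hPC).symm.surjective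
  have hvan : ∀ ξ ∈ f, ∀ g : C, p ∣ orderOf g → (ξ : C → ℂ) g ≠ 0 → ∀ u : C, IsPPart p g u →
      z ∈ Subgroup.zpowers (u : H) := by
    intro ξ hξ g hg hne u hu
    have h3 := van_of hM hnil.1 hdefC inferInstance (z := (⟨z, hzC⟩ : C))
      (by rw [Subgroup.mem_subgroupOf]; exact hzP) (by rw [← Subgroup.orderOf_coe]; exact hzo)
      (fun k => Subtype.ext ((hmemC k).1 k.2)) hξ hg hne hu
    obtain ⟨j, hj⟩ := h3
    refine ⟨j, ?_⟩
    have := congrArg (fun t : C => (t : H)) hj
    simpa using this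
  have hPcard : p ∣ Nat.card P := by
    have := orderOf_dvd_natCard (⟨z, hzP⟩ : P)
    rwa [← Subgroup.orderOf_coe, show orderOf ((⟨z, hzP⟩ : P) : H) = p from hzo] at this
  refine ⟨hcardf, hM, hzo, hmemC, hnil.1, hB, hreg, hvan, ?_, hT', hrank, ?_, ?_⟩
  · intro χ hχ ξ hξ ξ' hξ'
    exact sup_of hM hfB hmemC hreg hvan hχ hξ hξ'
  · rw [hcardf]
    exact lt_of_lt_of_le hpF.out.one_lt (Nat.le_of_dvd Nat.card_pos hPcard)
  · rw [hrel, hcardf]
    exact cyc_dim hM hB hPD hcyc hP1 hc hT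

theorem exists_loc (hM : IsPModular p M) {B : Set (IrrCharacter H)} (hB : IsPBlock M B)
    {P : Subgroup H} (hPD : IsDefectGroup p M B P) (hcyc : IsCyclic P) (hP1 : P ≠ ⊥) :
    ∃ (z : H) (C : Subgroup H) (_ : Fintype C) (f : Set (IrrCharacter C)) (T : Subgroup H),
      Nat.card f = Nat.card P ∧ Loc p M z C f B T := by
  classical
  haveI hPr : M.IsPrime := isPrime_of_modular hM
  haveI : M.IsMaximal := hM.2.1
  haveI := charP_kM hM
  have hab := Star.cyc_comm hcyc
  have hdef := (g_def hM hB).1 hPD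
  obtain ⟨e, he⟩ := exists_of_br_ne (g_blk hB) le_top hdef.pg hdef.br
  obtain ⟨c, hc, rfl⟩ := g_surj he.1.blk
  have hmx : IsMx p ⊤ (JB M B) P (J M P c) := isMx_of_isDef (g_blk hB) hdef he
  have hcind : IsInducedBlock M (Subgroup.centralizer (P : Set H)) c B :=
    br_ind hM hdef.pg (Star.ab_cen hab) (Subgroup.centralizer_le_normalizer _) le_rfl hc hB he.2
  -- an element of order `p`
  have hPcard : p ∣ Nat.card P := by
    obtain ⟨n, hn⟩ := IsPGroup.iff_card.1 hdef.pg
    rcases Nat.eq_zero_or_pos n with h0 | h0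
    · rw [h0, pow_zero] at hn
      exact absurd (Subgroup.card_eq_one.1 hn) hP1
    · rw [hn]; exact dvd_pow_self p h0.ne'
  obtain ⟨z', hz'⟩ := exists_prime_orderOf_dvd_card' p hPcard
  obtain ⟨z, hzP⟩ := z'
  have hzo : orderOf z = p := by rw [← hz', ← Subgroup.orderOf_coe]
  have hz1 : z ≠ 1 := by
    intro h
    rw [h, orderOf_one] at hzo
    exact hpF.out.ne_one hzo.symm
  have hQP : Subgroup.zpowers z ≤ P := by rw [Subgroup.zpowers_le]; exact hzP
  have hQ1 : Subgroup.zpowers z ≠ ⊥ := by rw [Ne, Subgroup.zpowers_eq_bot]; exact hz1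
  have hQp : IsPGroup p (Subgroup.zpowers z) := hdef.pg.to_le hQP
  have hle := Star.ev_spec hmx.1.1 hzP
  obtain ⟨f, hf, hfJ⟩ := g_surj (Star.ev_blk hmx.1.1 hzP)
  rw [← hfJ] at hle
  have hfin : IsInducedBlockIn M (Subgroup.centralizer ((Subgroup.zpowers z : Subgroup H) : Set H))
      (Subgroup.centralizer (P : Set H)) c f :=
    (abel_pair hM hdef.pg hab hQP hc hf).2 hle
  have hT : ∀ g : H, g ∈ TS ⊤ P (J M P c) ↔ (g ∈ Subgroup.normalizer (P : Set H) ∧
      StabilizesBlock (Subgroup.centralizer (P : Set H)) c g) := fun g => (g_stab hc).symm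
  have hT' : ∀ g : H, g ∈ TS ⊤ (Subgroup.zpowers z) (J M (Subgroup.zpowers z) f) ↔
      (g ∈ Subgroup.normalizer ((Subgroup.zpowers z : Subgroup H) : Set H) ∧
        StabilizesBlock (Subgroup.centralizer ((Subgroup.zpowers z : Subgroup H) : Set H)) f g) :=
    fun g => (g_stab hf).symm
  obtain ⟨-, hrel, hrank, hnil⟩ := Star.s4645 hM hB hPD hP1 hcyc hcind hT hQP hQ1 hfin hT'
  have hofQ := (of_iff_of_le (g_blk hB) hmx.1.1 hle).1 hmx.1
  have hfB : IsInducedBlock M (Subgroup.centralizer ((Subgroup.zpowers z : Subgroup H) : Set H)) f B := by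
    refine br_ind hM hQp ?_ (Subgroup.centralizer_le_normalizer _) le_rfl hf hB hofQ.2
    exact Star.ab_cen (fun x hx y hy => hab x (hQP hx) y (hQP hy))
  have hPC : P ≤ Subgroup.centralizer ((Subgroup.zpowers z : Subgroup H) : Set H) :=
    (Star.ab_cen hab).trans (centralizer_anti hQP)
  have hdefC : IsDefectGroup p M f (P.subgroupOf
      (Subgroup.centralizer ((Subgroup.zpowers z : Subgroup H) : Set H))) :=
    (c_def' hM hf hPC).2 ((isMx_local (g_blk hB) hmx hab hle).isDef (g_C hf))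
  letI : Fintype (Subgroup.centralizer ((Subgroup.zpowers z : Subgroup H) : Set H)) := Fintype.ofFinite _
  exact ⟨z, _, inferInstance, f, _,
    loc_of hM hB hPD hcyc hP1 hcind hT hzP hzo rfl hfB hT' hrel hrank hnil hPC hdefC⟩

/-- blocks with non-trivial cyclic defect groups have a weighted star -/
theorem cyclic_star (hM : IsPModular p M) {B : Set (IrrCharacter H)} (hB : IsPBlock M B)
    {P : Subgroup H} (hPD : IsDefectGroup p M B P) (hcyc : IsCyclic P) (hP1 : P ≠ ⊥) :
    ∃ (V : Type u) (_ : Fintype V) (_ : DecidableEq V) (F : V → Finset (IrrCharacter H)) (c : V → ℤ),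
      WStar p B F c (Nat.card P) := by
  obtain ⟨z, C, _, f, T, h1, h2⟩ := exists_loc hM hB hPD hcyc hP1
  have h3 := h2.star
  rw [h1] at h3
  exact h3

end Ex

end CfsgLib.Qb
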