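import Mathlib
import Cfsg.Agent.EqBase
import Cfsg.Agent.LibQb3
import Cfsg.Agent.LibNagE19
import Cfsg.Agent.LibReg19
import Cfsg.Agent.LibBlkRk

/-!
# Principal blocks and small centralizers (helper17)
-/

set_option autoImplicit false
set_option linter.unusedSectionVars false
set_option linter.style.haveILetI false
set_option linter.unusedSimpArgs false
set_option linter.unusedVariables false

namespace CfsgLib.Qb

open CfsgLib.CharInt hiding irr_isCharacter irr_classFun irr_one_ne_zero schur_scalar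
open Cfsg CfsgLib.CharInt2 CfsgLib.CharBasic CfsgLib.BlockR CfsgLib.BlockCore
  CfsgLib.BlockIdem CfsgLib.BlockIdeal CfsgLib.BlockConj CfsgLib.BlockBrauer CfsgLib.BlockInd
  CfsgLib.BlockFMT CfsgLib.BlockFMT2 CfsgLib.PLocalInd CfsgLib.BlockOrth CfsgLib.BlockDefect
  CfsgLib.BlockReg CfsgLib.BlockReg2 CfsgLib.BlockCount CfsgLib.BlockCount2 CfsgLib.BlockQP
  CfsgLib.BlockCov CfsgLib.BlockCov2 CfsgLib.BlockCov3 CfsgLib.BlockCov4 CfsgLib.BlockQuo
  CfsgLib.BlkS2 CfsgLib.BlockSec CfsgLib.Ur
open scoped ComplexConjugate Pointwise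

universe u

section Pri
variable {M : Ideal AlgInt} {p : ℕ} [hpF : Fact p.Prime] {H : Type u} [Group H] [Fintype H]

/-- the principal block of a group with Sylow subgroups of order `p` is star-shaped -/
theorem star_principal (hM : IsPModular p M) (h : Once p H) :
    ∃ (X Y : Finset (IrrCharacter H)) (δ : IrrCharacter H → ℤ) (ε : ℤ),
      Star p (principalBlock M H) X Y δ ε ∧ Y.card * X.card = p - 1 := by
  classical
  have hprime := isPrime_of_modular hM
  have hdvd := h.dvd
  obtain ⟨x, hx⟩ := exists_prime_orderOf_dvd_card' (G := H) p hdvd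
  obtain ⟨D, hDx, hth, hb, hθ⟩ := Once19.exists_principal hM h hx
  obtain ⟨Y, hY, hYB, hYe, hcard, hYY, δ, hδ, ε, hε, hYd, hreg⟩ := Once19.Dat.principal D hM hth hb hθ rfl
  set X : Finset (IrrCharacter H) :=
    Finset.univ.filter (fun χ : IrrCharacter H => χ ∈ principalBlock M H ∧ χ ∉ Y) with hX
  have hB : IsPBlock M (principalBlock M H) := ⟨⟨_, isIrrCharacter_one⟩, rfl⟩
  have hmem : ∀ χ, χ ∈ principalBlock M H ↔ χ ∈ X ∨ χ ∈ Y := by
    intro χ
    rw [hX, Finset.mem_filter]
    constructor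
    · intro h1
      by_cases h2 : χ ∈ Y
      · exact Or.inr h2
      · exact Or.inl ⟨Finset.mem_univ _, h1, h2⟩
    · rintro (h1 | h1)
      · exact h1.2.1
      · exact hYB χ h1
  have hdisj : Disjoint X Y := Finset.disjoint_left.2 fun χ h1 => (Finset.mem_filter.1 h1).2.2
  have hXe : X.card = D.C.relIndex D.N := by
    have h1 : Nat.card (principalBlock M H) = (X ∪ Y).card := by
      have h2 : principalBlock M H = ((X ∪ Y : Finset (IrrCharacter H)) : Set (IrrCharacter H)) := by
        ext χ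
        rw [Finset.mem_coe, Finset.mem_union]
        exact hmem χ
      rw [h2, Nat.card_coe_set_eq, Set.ncard_coe_finset]
    rw [Finset.card_union_of_disjoint hdisj] at h1
    omega
  have hp1 : 0 < p - 1 := by have := hpF.out.two_le; omega
  refine ⟨X, Y, δ, ε, ⟨hmem, fun χ h1 => Finset.disjoint_left.1 hdisj h1, ?_, hY, ?_, hε, hreg, ?_⟩, by rw [hXe]; exact hYe⟩
  · rw [← Finset.card_pos, hXe]
    rcases Nat.eq_zero_or_pos (D.C.relIndex D.N) with h1 | h1
    · rw [h1, mul_zero] at hYe; omega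
    · exact h1
  · intro χ hχ
    exact (hδ χ (Finset.mem_filter.1 hχ).2.1 (Finset.mem_filter.1 hχ).2.2).1
  · intro χ hχ g hg
    have hval : ∀ χ ∈ X, (χ : H → ℂ) g = δ χ := by
      intro χ hχ
      obtain ⟨t, c, j, hj, hc, htg⟩ := Once19.Dat.sing_conj D hg
      have h1 := (hδ χ (Finset.mem_filter.1 hχ).2.1 (Finset.mem_filter.1 hχ).2.2).2.2 j hj c hc
      rw [← h1, ← htg]
      exact ((irr_classFun χ.2) g t).symm
    have hsq : (δ χ : ℂ) * δ χ = 1 := by
      rcases (hδ χ (Finset.mem_filter.1 hχ).2.1 (Finset.mem_filter.1 hχ).2.2).1 with r | r <;>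
        rw [r] <;> norm_num
    have hεsq : (ε : ℂ) * ε = 1 := by rcases hε with r | r <;> rw [r] <;> norm_num
    have h2 := weak_block_orth hM hB (x := 1) (y := g)
      (by rw [orderOf_one, Nat.dvd_one]; exact hpF.out.ne_one) hg
    rw [← sum_ind] at h2
    have h3 : ∑ χ : IrrCharacter H, ind (principalBlock M H) χ * ((χ : H → ℂ) 1 * conj ((χ : H → ℂ) g)) =
        ∑ χ ∈ X ∪ Y, (χ : H → ℂ) 1 * conj ((χ : H → ℂ) g) := by
      symm
      rw [← Finset.sum_subset (Finset.subset_univ (X ∪ Y))]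
      · refine Finset.sum_congr rfl fun χ hχ => ?_
        rw [ind_of ((hmem χ).2 (Finset.mem_union.1 hχ)), one_mul]
      · intro χ _ hχ
        rw [ind_not (fun h1 => hχ (Finset.mem_union.2 ((hmem χ).1 h1))), zero_mul]
    rw [h3, Finset.sum_union hdisj] at h2
    obtain ⟨ψ0, hψ0⟩ := hY
    have h4 : ∑ χ ∈ X, (χ : H → ℂ) 1 * conj ((χ : H → ℂ) g) = (ε : ℂ) * (ψ0 : H → ℂ) 1 := by
      rw [hreg ψ0 hψ0 1 (by rw [orderOf_one, Nat.dvd_one]; exact hpF.out.ne_one)]
      refine Finset.sum_congr rfl fun χ hχ => ?_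
      rw [hval χ hχ, map_intCast, mul_comm]
    have h5 : ∑ χ ∈ Y, (χ : H → ℂ) 1 * conj ((χ : H → ℂ) g) =
        (ψ0 : H → ℂ) 1 * conj (∑ χ ∈ Y, (χ : H → ℂ) g) := by
      rw [map_sum, Finset.mul_sum]
      refine Finset.sum_congr rfl fun χ hχ => ?_
      rw [hYY χ hχ ψ0 hψ0 1 (by rw [orderOf_one, Nat.dvd_one]; exact hpF.out.ne_one)]
    rw [h4, h5] at h2
    have h6 : (ε : ℂ) + conj (∑ χ ∈ Y, (χ : H → ℂ) g) = 0 := by
      have h7 := CharBasic.irr_one_ne_zero ψ0.2
      apply mul_left_cancel₀ h7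
      rw [mul_zero, ← h2]; ring
    have h7 : (ε : ℂ) + ∑ χ ∈ Y, (χ : H → ℂ) g = 0 := by
      have h8 := congrArg conj h6
      rw [map_add, map_zero, map_intCast, Complex.conj_conj] at h8
      exact h8
    rw [hval χ hχ]
    linear_combination hsq - hεsq + (ε : ℂ) * h7

theorem one_add_le {a b n : ℕ} (h : a * b = n) (ha : 0 < a) (hb : 0 < b) : a + b ≤ n + 1 := by
  obtain ⟨a, rfl⟩ := Nat.exists_eq_succ_of_ne_zero ha.ne'
  obtain ⟨b, rfl⟩ := Nat.exists_eq_succ_of_ne_zero hb.ne'
  subst h
  simp only [Nat.succ_eq_add_one]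
  nlinarith [Nat.zero_le (a * b)]

theorem rank_pprime (hM : IsPModular p M) (h : ¬ p ∣ Nat.card H) :
    blockRank p (principalBlock M H) = 1 := by
  classical
  have h1 := CfsgLib.Reg19.card_principalBlock_le (G := H) hM
  rw [Nat.factorization_eq_zero_of_not_dvd h, pow_zero, one_pow] at h1
  have hprime := isPrime_of_modular hM
  let o : IrrCharacter H := ⟨fun _ => 1, isIrrCharacter_one⟩
  have ho : o ∈ principalBlock M H := mem_blockOf_self hprime o
  refine CfsgLib.BlkRk.rank_one_of ho fun χ hχ => ⟨1, fun g _ => ?_⟩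
  haveI : Finite (principalBlock M H) := Subtype.finite
  have h2 : Subsingleton (principalBlock M H) := Finite.card_le_one_iff_subsingleton.1 h1
  have h3 : (⟨χ, hχ⟩ : principalBlock M H) = ⟨o, ho⟩ := Subsingleton.elim _ _
  rw [one_mul, Subtype.mk.inj h3]

end Pri

section Main
variable {M : Ideal AlgInt} {p : ℕ} [hpF : Fact p.Prime] {G : Type u} [Group G] [Fintype G]

/-- the main case: a nontrivial `p`-element with small centralizer -/
theorem small_cent (hM : IsPModular p M) {x : G} (hx1 : x ≠ 1) (hx : ∃ k : ℕ, orderOf x = p ^ k)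
    (hc : (Nat.card (Subgroup.centralizer ({x} : Set G))).factorization p ≤ 2)
    (S : Finset (IrrCharacter G))
    (hS : ∀ χ ∈ S, χ ∈ principalBlock M G ∧ blockHeight p (principalBlock M G) (χ : G → ℂ) = 0) :
    S.card ≤ p ^ 2 := by
  classical
  haveI : Fintype (Subgroup.centralizer ({x} : Set G)) := Fintype.ofFinite _
  have hb : IsInducedBlock M (Subgroup.centralizer ({x} : Set G))
      (principalBlock M (Subgroup.centralizer ({x} : Set G))) (principalBlock M G) :=
    (CfsgLib.BlockH.third_main hM _ _ (exists_induced_centralizer hM hx ⟨⟨_, isIrrCharacter_one⟩, rfl⟩)).2 rfl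
  obtain ⟨k, hk⟩ := hx
  have hk1 : 1 ≤ k := by
    rcases Nat.eq_zero_or_pos k with h | h
    · rw [h, pow_zero, orderOf_eq_one_iff] at hk; exact absurd hk hx1
    · exact h
  let xc : Subgroup.centralizer ({x} : Set G) := ⟨x, Subgroup.mem_centralizer_singleton_iff.2 rfl⟩
  have hxo : orderOf xc = p ^ k := by rw [← hk]; exact Subgroup.orderOf_mk x _
  set Q : Subgroup (Subgroup.centralizer ({x} : Set G)) := Subgroup.zpowers xc with hQ
  have hcen : ∀ c : Subgroup.centralizer ({x} : Set G), c * xc = xc * c := by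
    intro c
    have := Subgroup.mem_centralizer_singleton_iff.1 c.2
    exact Subtype.ext this
  have hQc : Q ≤ Subgroup.center _ := by
    rw [hQ, Subgroup.zpowers_le, Subgroup.mem_center_iff]
    exact hcen
  haveI hQn : Q.Normal := ⟨fun n hn g => by
    have h1 := Subgroup.mem_center_iff.1 (hQc hn) g
    rw [h1, mul_inv_cancel_right]; exact hn⟩
  haveI : Fintype (Subgroup.centralizer ({x} : Set G) ⧸ Q) := Fintype.ofFinite _
  have hQcard : Nat.card Q = p ^ k := by rw [hQ, Nat.card_zpowers, hxo]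
  have hQp : IsPGroup p Q := IsPGroup.of_card (n := k) hQcard
  have hcent : Subgroup.centralizer (Q : Set (Subgroup.centralizer ({x} : Set G))) = ⊤ := by
    rw [Subgroup.centralizer_eq_top_iff_subset]
    exact hQc
  have hC : ∀ g : Subgroup.centralizer ({x} : Set G), ¬ p ∣ orderOf g →
      g ∈ Subgroup.centralizer (Q : Set (Subgroup.centralizer ({x} : Set G))) := by
    intro g _
    rw [hcent]; trivial
  have hmul : Nat.card (Subgroup.centralizer ({x} : Set G)) =
      Nat.card (Subgroup.centralizer ({x} : Set G) ⧸ Q) * p ^ k := by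
    rw [← hQcard]; exact Subgroup.card_eq_card_quotient_mul_card_subgroup Q
  have hfac : (Nat.card (Subgroup.centralizer ({x} : Set G))).factorization p =
      (Nat.card (Subgroup.centralizer ({x} : Set G) ⧸ Q)).factorization p + k := by
    rw [hmul, Nat.factorization_mul Nat.card_pos.ne' (pow_ne_zero _ hpF.out.ne_zero), Finsupp.add_apply,
      hpF.out.factorization_pow, Finsupp.single_eq_same]
  by_cases hH : p ∣ Nat.card (Subgroup.centralizer ({x} : Set G) ⧸ Q)
  · -- star-shaped quotient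
    have hf1 : 1 ≤ (Nat.card (Subgroup.centralizer ({x} : Set G) ⧸ Q)).factorization p :=
      (hpF.out.dvd_iff_one_le_factorization Nat.card_pos.ne').1 hH
    have hk' : k = 1 := by omega
    have hf2 : (Nat.card (Subgroup.centralizer ({x} : Set G) ⧸ Q)).factorization p = 1 := by omega
    have hOnce : Once p (Subgroup.centralizer ({x} : Set G) ⧸ Q) := by
      refine ⟨hpF.out, hH, fun h2 => ?_⟩
      have := (hpF.out.pow_dvd_iff_le_factorization Nat.card_pos.ne').1 h2
      omega
    obtain ⟨X, Y, δ, ε, hst, hXY⟩ := star_principal hM hOnce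
    have hset : {ξ : IrrCharacter (Subgroup.centralizer ({x} : Set G) ⧸ Q) | infl Q ξ ∈ principalBlock M (Subgroup.centralizer ({x} : Set G))} = principalBlock M (Subgroup.centralizer ({x} : Set G) ⧸ Q) := by
      ext ξ
      have h1 := sameBlock_infl_iff hM hQp ⟨0, by rw [hcent]; simp⟩
        (⟨_, isIrrCharacter_one⟩ : IrrCharacter (Subgroup.centralizer ({x} : Set G) ⧸ Q)) ξ
      have h2 : infl Q (⟨_, isIrrCharacter_one⟩ : IrrCharacter (Subgroup.centralizer ({x} : Set G) ⧸ Q)) = ⟨_, isIrrCharacter_one⟩ := rfl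
      rw [h2] at h1
      exact h1.symm
    rw [← hset] at hst
    have h1 := star_bound hM ⟨k, hk⟩ hb hQp hC hst S hS
    have h2 := one_add_le hXY (Finset.card_pos.2 hst.Yne) (Finset.card_pos.2 hst.Xne)
    rw [hQcard, hk', pow_one] at h1
    calc S.card ≤ p * (Y.card + X.card) := h1
      _ ≤ p * (p - 1 + 1) := Nat.mul_le_mul_left _ h2
      _ = p ^ 2 := by rw [Nat.sub_add_cancel hpF.out.one_le, pow_two]
  · -- nilpotent case
    have h1 := s4571 hM Q hQp (by rw [hcent]; simp)
    rw [rank_pprime hM hH] at h1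
    have h2 := Ct.card_sq_le hM ⟨k, hk⟩ hb S hS
    rw [h1, mul_one, pow_mul'] at h2
    have h3 : S.card ≤ p ^ blockDefect p (principalBlock M (Subgroup.centralizer ({x} : Set G))) := (Nat.pow_le_pow_iff_left two_ne_zero).1 h2
    refine h3.trans (Nat.pow_le_pow_right hpF.out.pos ?_)
    exact (blockDefect_le _).trans hc

theorem s4588 (hM : IsPModular p M)
    (hx : ∃ x : G, (∃ k : ℕ, orderOf x = p ^ k) ∧
      (Nat.card (Subgroup.centralizer ({x} : Set G))).factorization p ≤ 2) :
    Nat.card {χ : IrrCharacter G // χ ∈ principalBlock M G ∧ ¬ p ∣ charDegree (χ : G → ℂ)} ≤ p ^ 2 := by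
  classical
  have hprime := isPrime_of_modular hM
  haveI : Finite (principalBlock M G) := Subtype.finite
  by_cases hG : p ∣ Nat.card G
  · obtain ⟨x, hx, hc⟩ := hx
    -- replace by a nontrivial element
    obtain ⟨x', hx1, hx', hc'⟩ : ∃ x' : G, x' ≠ 1 ∧ (∃ k : ℕ, orderOf x' = p ^ k) ∧
        (Nat.card (Subgroup.centralizer ({x'} : Set G))).factorization p ≤ 2 := by
      by_cases h1 : x = 1
      · obtain ⟨y, hy⟩ := exists_prime_orderOf_dvd_card' (G := G) p hG
        refine ⟨y, ?_, ⟨1, by rw [pow_one, hy]⟩, ?_⟩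
        · intro h; rw [h, orderOf_one] at hy; exact hpF.out.ne_one hy.symm
        · refine le_trans ?_ hc
          have h2 : Subgroup.centralizer ({x} : Set G) = ⊤ := by
            rw [Subgroup.centralizer_eq_top_iff_subset, h1]
            intro z hz
            rw [Set.mem_singleton_iff.1 hz]
            exact (Subgroup.center G).one_mem
          rw [h2, Subgroup.card_top]
          exact (Nat.factorization_le_iff_dvd Nat.card_pos.ne' Nat.card_pos.ne').2
            (Subgroup.card_subgroup_dvd_card _) p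
      · exact ⟨x, h1, hx, hc⟩
    set S : Finset (IrrCharacter G) :=
      Finset.univ.filter (fun χ => χ ∈ principalBlock M G ∧ ¬ p ∣ charDegree (χ : G → ℂ)) with hS
    have h1 : Nat.card {χ : IrrCharacter G // χ ∈ principalBlock M G ∧ ¬ p ∣ charDegree (χ : G → ℂ)} = S.card := by
      rw [Nat.card_eq_fintype_card, Fintype.card_subtype]
    rw [h1]
    refine small_cent hM hx1 hx' hc' S fun χ hχ => ?_
    rw [hS, Finset.mem_filter] at hχ
    refine ⟨hχ.2.1, ?_⟩
    unfold blockHeight
    rw [Nat.factorization_eq_zero_of_not_dvd hχ.2.2]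
    exact Nat.zero_sub _
  · have h1 := CfsgLib.Reg19.card_principalBlock_le (G := G) hM
    rw [Nat.factorization_eq_zero_of_not_dvd hG, pow_zero, one_pow] at h1
    have h2 : Nat.card {χ : IrrCharacter G // χ ∈ principalBlock M G ∧ ¬ p ∣ charDegree (χ : G → ℂ)} ≤
        Nat.card (principalBlock M G) :=
      Nat.card_le_card_of_injective (fun χ => (⟨χ.1, χ.2.1⟩ : principalBlock M G))
        (fun a b h => Subtype.ext (congrArg (fun z : principalBlock M G => z.1) h))
    exact (h2.trans h1).trans (Nat.one_le_pow _ _ hpF.out.pos)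

end Main

end CfsgLib.Qb
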