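import Mathlib
import Cfsg.Agent.EqBase
import Cfsg.Agent.LibStar20

/-!
# Homocyclic defect groups, I: dual group computations (helper17)
-/

set_option autoImplicit false
set_option linter.unusedSectionVars false
set_option linter.style.haveILetI false
set_option linter.unusedSimpArgs false
set_option linter.unusedVariables false

namespace CfsgLib.Qc

open scoped ComplexConjugate BigOperators

universe u

variable {P : Type u} [Group P] [Fintype P]

/-- the dual group -/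
def Ch (P : Type u) [Group P] : Type u := P →* ℂˣ

instance (P : Type u) [Group P] : CommGroup (Ch P) := inferInstanceAs (CommGroup (P →* ℂˣ))

/-- underlying homomorphism -/
def Ch.h (f : Ch P) : P →* ℂˣ := f

/-- value of a linear character -/
def ev (f : Ch P) (v : P) : ℂ := ((f.h v : ℂˣ) : ℂ)

theorem h_mul (f g : Ch P) (v : P) : (f * g).h v = f.h v * g.h v := rfl
theorem h_one (v : P) : (1 : Ch P).h v = 1 := rfl
theorem h_inv (f : Ch P) (v : P) : (f⁻¹).h v = (f.h v)⁻¹ := rfl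
theorem h_pow (f : Ch P) (n : ℕ) (v : P) : (f ^ n).h v = (f.h v) ^ n := by
  induction n with
  | zero => rw [pow_zero, pow_zero]; rfl
  | succ n ih => rw [pow_succ, pow_succ, h_mul, ih]

theorem ch_ext {f g : Ch P} (h : ∀ v, f.h v = g.h v) : f = g := MonoidHom.ext h

theorem ev_mul (f g : Ch P) (v : P) : ev (f * g) v = ev f v * ev g v := by
  unfold ev; rw [h_mul, Units.val_mul]

theorem ev_one (v : P) : ev (1 : Ch P) v = 1 := by unfold ev; rw [h_one, Units.val_one]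

theorem ev_at_one (f : Ch P) : ev f 1 = 1 := by unfold ev; rw [map_one, Units.val_one]

theorem ev_vmul (f : Ch P) (v x : P) : ev f (v * x) = ev f v * ev f x := by
  unfold ev; rw [map_mul, Units.val_mul]

theorem ev_ne (f : Ch P) (v : P) : ev f v ≠ 0 := Units.ne_zero _

theorem ev_pow_card (f : Ch P) (v : P) : ev f v ^ Nat.card P = 1 := by
  unfold ev
  rw [← Units.val_pow_eq_pow_val, ← map_pow, pow_card_eq_one', map_one, Units.val_one]

theorem ev_norm (f : Ch P) (v : P) : ‖ev f v‖ = 1 := by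
  have h := congrArg norm (ev_pow_card f v)
  rw [norm_pow, norm_one] at h
  exact (pow_eq_one_iff_of_nonneg (norm_nonneg _) Nat.card_pos.ne').1 h

theorem ev_inv (f : Ch P) (v : P) : ev f⁻¹ v = conj (ev f v) := by
  have h1 : ev f⁻¹ v = (ev f v)⁻¹ := by unfold ev; rw [h_inv, Units.val_inv_eq_inv_val]
  rw [h1, Complex.inv_eq_conj (ev_norm f v)]

theorem ev_mul_conj (f : Ch P) (v : P) : ev f v * conj (ev f v) = 1 := by
  rw [← ev_inv, ← ev_mul, mul_inv_cancel, ev_one]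

theorem ev_injective {f g : Ch P} (h : ∀ v, ev f v = ev g v) : f = g := by
  apply ch_ext
  intro v
  exact Units.ext (h v)

theorem sum_ev {f : Ch P} (hf : f ≠ 1) : ∑ v : P, ev f v = 0 := by
  have h1 : ∃ w, f.h w ≠ 1 := by
    by_contra h
    push Not at h
    exact hf (ch_ext h)
  obtain ⟨w, hw⟩ := h1
  have h2 : ∑ v : P, ev f v = ev f w * ∑ v : P, ev f v := by
    rw [Finset.mul_sum, ← Equiv.sum_comp (Equiv.mulLeft w)]
    refine Finset.sum_congr rfl fun v _ => ?_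
    rw [Equiv.coe_mulLeft, ev_vmul]
  have h3 : (1 - ev f w) * ∑ v : P, ev f v = 0 := by rw [sub_mul, one_mul, ← h2, sub_self]
  rcases mul_eq_zero.1 h3 with h | h
  · exfalso
    apply hw
    apply Units.ext
    rw [Units.val_one]
    exact (sub_eq_zero.1 h).symm
  · exact h

theorem sum_ev_one : ∑ v : P, ev (1 : Ch P) v = Nat.card P := by
  simp [ev_one, Nat.card_eq_fintype_card]

theorem finite_hom (hab : ∀ a b : P, a * b = b * a) : Finite (Ch P) := by
  letI : CommGroup P := { (inferInstance : Group P) with mul_comm := hab }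
  obtain ⟨e⟩ := CommGroup.monoidHom_mulEquiv_of_hasEnoughRootsOfUnity P ℂ
  exact Finite.of_equiv P e.symm.toEquiv

theorem card_hom (hab : ∀ a b : P, a * b = b * a) : Nat.card (Ch P) = Nat.card P := by
  letI : CommGroup P := { (inferInstance : Group P) with mul_comm := hab }
  exact CommGroup.card_monoidHom_of_hasEnoughRootsOfUnity P ℂ

theorem exists_hom (hab : ∀ a b : P, a * b = b * a) {v : P} (hv : v ≠ 1) :
    ∃ f : Ch P, f.h v ≠ 1 := by
  letI : CommGroup P := { (inferInstance : Group P) with mul_comm := hab }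
  exact CommGroup.exists_apply_ne_one_of_hasEnoughRootsOfUnity P ℂ hv

theorem sum_hom (hab : ∀ a b : P, a * b = b * a) [Fintype (Ch P)] {v : P} (hv : v ≠ 1) :
    ∑ f : Ch P, ev f v = 0 := by
  obtain ⟨g, hg⟩ := exists_hom hab hv
  have h2 : ∑ f : Ch P, ev f v = ev g v * ∑ f : Ch P, ev f v := by
    rw [Finset.mul_sum, ← Equiv.sum_comp (Equiv.mulLeft g)]
    refine Finset.sum_congr rfl fun f _ => ?_
    rw [Equiv.coe_mulLeft, ev_mul]
  have h3 : (1 - ev g v) * ∑ f : Ch P, ev f v = 0 := by rw [sub_mul, one_mul, ← h2, sub_self]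
  rcases mul_eq_zero.1 h3 with h | h
  · exfalso
    apply hg
    apply Units.ext
    rw [Units.val_one]
    exact (sub_eq_zero.1 h).symm
  · exact h

/-- Fourier inversion -/
theorem inversion (hab : ∀ a b : P, a * b = b * a) [Fintype (Ch P)] (F : P → ℂ) (w : P) :
    F w = ∑ f : Ch P, ((Nat.card P : ℂ)⁻¹ * ∑ v : P, ev f v * F v) * conj (ev f w) := by
  classical
  have hP : (Nat.card P : ℂ) ≠ 0 := by exact_mod_cast Nat.card_pos.ne'
  have h1 : ∀ v : P, ∑ f : Ch P, ev f v * conj (ev f w) = if v = w then (Nat.card P : ℂ) else 0 := by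
    intro v
    have h2 : ∀ f : Ch P, ev f v * conj (ev f w) = ev f (v * w⁻¹) := by
      intro f
      rw [ev_vmul, ← ev_inv]
      congr 1
      unfold ev
      rw [h_inv, map_inv]
    rw [Finset.sum_congr rfl fun f _ => h2 f]
    split_ifs with h
    · subst h
      simp only [mul_inv_cancel, ev_at_one, Finset.sum_const, nsmul_eq_mul, mul_one]
      rw [← card_hom hab, Nat.card_eq_fintype_card, Finset.card_univ]
    · exact sum_hom hab (fun h' => h (mul_inv_eq_one.1 h'))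
  calc F w = (Nat.card P : ℂ)⁻¹ * ∑ v : P, F v * (if v = w then (Nat.card P : ℂ) else 0) := by
        simp only [mul_ite, mul_zero, Finset.sum_ite_eq', Finset.mem_univ, if_true]
        field_simp
    _ = (Nat.card P : ℂ)⁻¹ * ∑ v : P, F v * ∑ f : Ch P, ev f v * conj (ev f w) := by
        simp only [h1]
    _ = _ := by
        simp only [Finset.mul_sum, Finset.sum_mul]
        rw [Finset.sum_comm]
        refine Finset.sum_congr rfl fun f _ => Finset.sum_congr rfl fun v _ => ?_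
        ring

/-- action on the dual group -/
def w (φ : P ≃* P) : (Ch P) →* (Ch P) where
  toFun f := f.h.comp φ.toMonoidHom
  map_one' := rfl
  map_mul' f g := rfl

theorem w_apply (φ : P ≃* P) (f : Ch P) (v : P) : (w φ f).h v = f.h (φ v) := rfl

/-- an automorphism of order three without fixed points, rank two -/
structure Tri (φ : P ≃* P) (μ : Ch P) : Prop where
  ab : ∀ a b : P, a * b = b * a
  f3 : ∀ v, v * φ v * φ (φ v) = 1
  pg : ∃ n : ℕ, Nat.card P = 2 ^ n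
  m1 : μ ≠ 1
  m2 : μ * μ = 1
  four : ∀ f : Ch P, f * f = 1 → f = 1 ∨ f = μ ∨ f = w φ μ ∨ f = w φ (w φ μ)

theorem ev_w (φ : P ≃* P) (f : Ch P) (v : P) : ev (w φ f) v = ev f (φ v) := rfl

namespace Tri
variable {φ : P ≃* P} {μ : Ch P}

theorem phi3 (h : Tri φ μ) (v : P) : φ (φ (φ v)) = v := by
  have h1 := h.f3 v
  have h2 := h.f3 (φ v)
  have h3 : φ (φ (φ v)) = (φ v * φ (φ v))⁻¹ := eq_inv_of_mul_eq_one_right h2
  have h4 : v = (φ v * φ (φ v))⁻¹ := by
    apply eq_inv_of_mul_eq_one_left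
    rw [← mul_assoc]; exact h1
  rw [h3, ← h4]

theorem w3 (h : Tri φ μ) (f : Ch P) : f * w φ f * w φ (w φ f) = 1 := by
  apply ch_ext
  intro v
  show f.h v * f.h (φ v) * f.h (φ (φ v)) = 1
  rw [← map_mul, ← map_mul, h.f3, map_one]

theorem www (h : Tri φ μ) (f : Ch P) : w φ (w φ (w φ f)) = f := by
  apply ch_ext
  intro v
  show f.h (φ (φ (φ v))) = f.h v
  rw [h.phi3]

theorem pow2 (h : Tri φ μ) : ∃ n : ℕ, ∀ f : Ch P, f ^ (2 ^ n) = 1 := by
  obtain ⟨n, hn⟩ := h.pg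
  refine ⟨n, fun f => ?_⟩
  apply ch_ext
  intro v
  rw [h_pow, ← map_pow, ← hn, pow_card_eq_one', map_one, h_one]

theorem odd_pow (h : Tri φ μ) {k : ℕ} (hk : ¬ 2 ∣ k) {f : Ch P} (hf : f ^ k = 1) : f = 1 := by
  obtain ⟨n, hn⟩ := h.pow2
  have h1 : orderOf f ∣ k := orderOf_dvd_of_pow_eq_one hf
  have h2 : orderOf f ∣ 2 ^ n := orderOf_dvd_of_pow_eq_one (hn f)
  have h3 : Nat.Coprime k (2 ^ n) := Nat.Coprime.pow_right _
    ((Nat.Prime.coprime_iff_not_dvd Nat.prime_two).2 hk).symm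
  have h4 : orderOf f = 1 := Nat.eq_one_of_dvd_coprimes h3 h1 h2
  exact orderOf_eq_one_iff.1 h4

theorem fixw (h : Tri φ μ) {f : Ch P} (hf : w φ f = f) : f = 1 := by
  apply h.odd_pow (k := 3) (by norm_num)
  have h1 := h.w3 f
  rw [hf, hf] at h1
  rw [pow_succ, pow_two]; exact h1

theorem fixww (h : Tri φ μ) {f : Ch P} (hf : w φ (w φ f) = f) : f = 1 := by
  apply h.fixw
  have h1 := congrArg (w φ) hf
  rw [h.www] at h1
  exact h1.symm

theorem w_inj (h : Tri φ μ) {f g : Ch P} (hf : w φ f = w φ g) : f = g := by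
  rw [← h.www f, hf, h.www]

/-- the Klein four group of characters with square one -/
def V (f : Ch P) : Prop := f * f = 1

theorem four' (h : Tri φ μ) {f : Ch P} (hf : f * f = 1) :
    f = 1 ∨ f = μ ∨ f = w φ μ ∨ f = w φ (w φ μ) := h.four f hf

theorem wm2 (h : Tri φ μ) : w φ μ * w φ μ = 1 := by rw [← map_mul, h.m2, map_one]
theorem wwm2 (h : Tri φ μ) : w φ (w φ μ) * w φ (w φ μ) = 1 := by
  rw [← map_mul, h.wm2, map_one]

theorem wm1 (h : Tri φ μ) : w φ μ ≠ 1 := fun h' => h.m1 (h.w_inj (by rw [h', map_one]))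
theorem wwm1 (h : Tri φ μ) : w φ (w φ μ) ≠ 1 := fun h' => h.wm1 (h.w_inj (by rw [h', map_one]))

theorem wwm (h : Tri φ μ) : w φ (w φ μ) = μ * w φ μ := by
  have h1 := h.w3 μ
  have h2 : w φ (w φ μ) = (μ * w φ μ)⁻¹ := eq_inv_of_mul_eq_one_right h1
  rw [h2, mul_inv]
  have h3 : μ⁻¹ = μ := inv_eq_of_mul_eq_one_right h.m2
  have h4 : (w φ μ)⁻¹ = w φ μ := inv_eq_of_mul_eq_one_right h.wm2
  rw [h3, h4]

theorem ev_pm (f : Ch P) (hf : f * f = 1) (v : P) : ev f v = 1 ∨ ev f v = -1 := by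
  have h1 : ev f v * ev f v = 1 := by rw [← ev_mul, hf, ev_one]
  exact mul_self_eq_one_iff.1 h1

end Tri

/-- the weight function -/
noncomputable def ka (φ : P ≃* P) (μ : Ch P) (v : P) : ℝ :=
  (1 + ev μ v - ev (w φ μ) v - ev (w φ (w φ μ)) v).re

namespace Tri
variable {φ : P ≃* P} {μ : Ch P}

theorem ka_cases (h : Tri φ μ) (v : P) :
    (ka φ μ v = 4 ∧ ev μ v = 1 ∧ ev (w φ μ) v = -1 ∧ ev (w φ (w φ μ)) v = -1) ∨ ka φ μ v = 0 := by
  have h1 : ev (w φ (w φ μ)) v = ev μ v * ev (w φ μ) v := by rw [h.wwm, ev_mul]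
  unfold ka
  rw [h1]
  rcases ev_pm μ h.m2 v with h2 | h2 <;> rcases ev_pm (w φ μ) h.wm2 v with h3 | h3 <;>
    rw [h2, h3] <;> norm_num

theorem ka_nonneg (h : Tri φ μ) (v : P) : 0 ≤ ka φ μ v := by
  rcases h.ka_cases v with h1 | h1
  · rw [h1.1]; norm_num
  · rw [h1]

theorem ka_eq (h : Tri φ μ) (v : P) :
    (ka φ μ v : ℂ) = 1 + ev μ v - ev (w φ μ) v - ev (w φ (w φ μ)) v := by
  have h1 : ev (w φ (w φ μ)) v = ev μ v * ev (w φ μ) v := by rw [h.wwm, ev_mul]
  unfold ka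
  rw [h1]
  rcases ev_pm μ h.m2 v with h2 | h2 <;> rcases ev_pm (w φ μ) h.wm2 v with h3 | h3 <;>
    rw [h2, h3] <;> norm_num

theorem sum_ka (h : Tri φ μ) {f : Ch P} (hf : ¬ f * f = 1) :
    ∑ v : P, (ka φ μ v : ℂ) * ev f v = 0 := by
  have h1 : ∀ g : Ch P, g * g = 1 → ∑ v : P, ev (f * g) v = 0 := by
    intro g hg
    apply sum_ev
    intro h'
    apply hf
    have h2 : f = g⁻¹ := eq_inv_of_mul_eq_one_left h'
    rw [h2, ← mul_inv, hg, inv_one]
  have h2 : ∀ v : P, (ka φ μ v : ℂ) * ev f v = ev (f * 1) v + ev (f * μ) v - ev (f * w φ μ) v -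
      ev (f * w φ (w φ μ)) v := by
    intro v
    rw [h.ka_eq, ev_mul, ev_mul, ev_mul, ev_mul, ev_one]; ring
  rw [Finset.sum_congr rfl fun v _ => h2 v, Finset.sum_sub_distrib, Finset.sum_sub_distrib,
    Finset.sum_add_distrib, h1 _ (one_mul 1), h1 _ h.m2, h1 _ h.wm2, h1 _ h.wwm2]
  ring

theorem sum_ka_one (h : Tri φ μ) : ∑ v : P, (ka φ μ v : ℂ) = Nat.card P := by
  have h2 : ∀ v : P, (ka φ μ v : ℂ) = ev 1 v + ev μ v - ev (w φ μ) v - ev (w φ (w φ μ)) v := by
    intro v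
    rw [h.ka_eq, ev_one]
  rw [Finset.sum_congr rfl fun v _ => h2 v, Finset.sum_sub_distrib, Finset.sum_sub_distrib,
    Finset.sum_add_distrib, sum_ev h.m1, sum_ev h.wm1, sum_ev h.wwm1, sum_ev_one]
  ring

end Tri

/-- integral Fourier data of an invariant function -/
structure FD (φ : P ≃* P) (F : P → ℂ) (a : (Ch P) → ℤ) : Prop where
  inv : ∀ v, F (φ v) = F v
  coef : ∀ f, (a f : ℂ) = (Nat.card P : ℂ)⁻¹ * ∑ v : P, ev f v * F v

/-- twisted coefficient sum -/
def SS (φ : P ≃* P) (μ : Ch P) (a : (Ch P) → ℤ) (f : Ch P) : ℤ :=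
  a f + a (f * μ) - a (f * w φ μ) - a (f * w φ (w φ μ))

namespace FD
variable {φ : P ≃* P} {μ : Ch P} {F : P → ℂ} {a : (Ch P) → ℤ}

theorem a_w (h : FD φ F a) (f : Ch P) : a (w φ f) = a f := by
  have h1 : (a (w φ f) : ℂ) = a f := by
    rw [h.coef, h.coef]
    congr 1
    rw [← Equiv.sum_comp φ.toEquiv (fun v => ev f v * F v)]
    refine Finset.sum_congr rfl fun v _ => ?_
    show ev (w φ f) v * F v = ev f (φ v) * F (φ v)
    rw [h.inv, ev_w]
  exact_mod_cast h1

theorem S_eq (hT : Tri φ μ) (h : FD φ F a) (f : Ch P) :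
    (SS φ μ a f : ℂ) = (Nat.card P : ℂ)⁻¹ * ∑ v : P, (ka φ μ v : ℂ) * (ev f v * F v) := by
  unfold SS
  push_cast
  rw [h.coef, h.coef, h.coef, h.coef, ← mul_add, ← mul_sub, ← mul_sub, ← Finset.sum_add_distrib,
    ← Finset.sum_sub_distrib, ← Finset.sum_sub_distrib]
  congr 1
  refine Finset.sum_congr rfl fun v _ => ?_
  rw [hT.ka_eq, ev_mul, ev_mul, ev_mul]
  ring

theorem S_mu (hT : Tri φ μ) (a : (Ch P) → ℤ) (f : Ch P) :
    SS φ μ a (f * μ) = SS φ μ a f := by
  unfold SS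
  have h1 : f * μ * μ = f := by rw [mul_assoc, hT.m2, mul_one]
  have h2 : f * μ * w φ μ = f * w φ (w φ μ) := by rw [mul_assoc, ← hT.wwm]
  have h3 : f * μ * w φ (w φ μ) = f * w φ μ := by
    rw [hT.wwm, mul_assoc, ← mul_assoc μ μ, hT.m2, one_mul]
  rw [h1, h2, h3]; ring

theorem S_wmu (hT : Tri φ μ) (a : (Ch P) → ℤ) (f : Ch P) :
    SS φ μ a (f * w φ μ) = - SS φ μ a f := by
  unfold SS
  have h1 : f * w φ μ * μ = f * w φ (w φ μ) := by rw [hT.wwm, mul_assoc, mul_comm (w φ μ)]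
  have h2 : f * w φ μ * w φ μ = f := by rw [mul_assoc, hT.wm2, mul_one]
  have h3 : f * w φ μ * w φ (w φ μ) = f * μ := by
    rw [hT.wwm, mul_assoc, mul_comm μ, ← mul_assoc (w φ μ), hT.wm2, one_mul]
  rw [h1, h2, h3]; ring

/-- parity -/
theorem S_parity (hT : Tri φ μ) (h : FD φ F a) (f : Ch P) :
    (2 : ℤ) ∣ SS φ μ a (w φ f) - SS φ μ a f := by
  unfold SS
  have h1 : a (w φ f * μ) = a (f * w φ (w φ μ)) := by
    rw [← h.a_w (f * w φ (w φ μ)), map_mul, hT.www]
  have h2 : a (w φ f * w φ μ) = a (f * μ) := by rw [← map_mul, h.a_w]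
  have h3 : a (w φ f * w φ (w φ μ)) = a (f * w φ μ) := by rw [← map_mul, h.a_w]
  rw [h.a_w, h1, h2, h3]
  exact ⟨a (f * w φ (w φ μ)) - a (f * μ), by ring⟩

end FD

end CfsgLib.Qc
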