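import Mathlib
import Cfsg.Agent.LibQc1

/-!
# Homocyclic defect groups, II: positivity (helper17)
-/

set_option autoImplicit false
set_option linter.unusedSectionVars false
set_option linter.style.haveILetI false
set_option linter.unusedSimpArgs false
set_option linter.unusedVariables false

namespace CfsgLib.Qc

open scoped ComplexConjugate BigOperators

universe u

variable {P : Type u} [Group P] [Fintype P] {φ : P ≃* P} {μ : Ch P}

section PD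
variable {ι : Type*} [Fintype ι]

/-- combination -/
noncomputable def yy (g : ι → Ch P) (c : ι → ℝ) (v : P) : ℂ := ∑ i, (c i : ℂ) * ev (g i) v

theorem yy_sq (g : ι → Ch P) (c : ι → ℝ) (v : P) :
    ((Complex.normSq (yy g c v) : ℝ) : ℂ) =
      ∑ i, ∑ j, (c i : ℂ) * (c j : ℂ) * ev (g i * (g j)⁻¹) v := by
  rw [Complex.normSq_eq_conj_mul_self, mul_comm]
  unfold yy
  rw [map_sum, Finset.sum_mul_sum]
  refine Finset.sum_congr rfl fun i _ => Finset.sum_congr rfl fun j _ => ?_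
  rw [map_mul, Complex.conj_ofReal, ev_mul, ev_inv]
  ring

theorem sum_yy (hT : Tri φ μ) (H : P → ℂ) (S : Ch P → ℂ)
    (hS : ∀ f, S f = (Nat.card P : ℂ)⁻¹ * ∑ v : P, (ka φ μ v : ℂ) * (ev f v * H v))
    (g : ι → Ch P) (c : ι → ℝ) :
    ∑ i, ∑ j, (c i : ℂ) * (c j : ℂ) * S (g i * (g j)⁻¹) =
      (Nat.card P : ℂ)⁻¹ * ∑ v : P, (ka φ μ v : ℂ) * H v * ((Complex.normSq (yy g c v) : ℝ) : ℂ) := by
  simp only [yy_sq, hS, Finset.mul_sum]
  conv_rhs => rw [Finset.sum_comm]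
  refine Finset.sum_congr rfl fun i _ => ?_
  conv_rhs => rw [Finset.sum_comm]
  refine Finset.sum_congr rfl fun j _ => Finset.sum_congr rfl fun v _ => ?_
  ring

/-- strict positivity -/
theorem pd (hT : Tri φ μ) {F : P → ℂ} {a : Ch P → ℤ} (h : FD φ F a)
    (hpos : ∀ v, ∃ r : ℝ, 0 < r ∧ F v = r) (g : ι → Ch P) (c : ι → ℝ)
    (hg : ∀ i j, i ≠ j → ¬ (g i * (g j)⁻¹) * (g i * (g j)⁻¹) = 1) (hc : ∃ i, c i ≠ 0) :
    0 < ∑ i, ∑ j, c i * c j * (SS φ μ a (g i * (g j)⁻¹) : ℝ) := by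
  classical
  have hP : (0 : ℝ) < Nat.card P := by exact_mod_cast Nat.card_pos
  choose r hr hF using hpos
  have h1 : (∑ i, ∑ j, c i * c j * (SS φ μ a (g i * (g j)⁻¹) : ℝ) : ℝ) =
      (Nat.card P : ℝ)⁻¹ * ∑ v : P, ka φ μ v * r v * Complex.normSq (yy g c v) := by
    have h2 := sum_yy hT F (fun f => (SS φ μ a f : ℂ)) (fun f => h.S_eq hT f) g c
    have h3 : ((∑ i, ∑ j, c i * c j * (SS φ μ a (g i * (g j)⁻¹) : ℝ) : ℝ) : ℂ) =
        (((Nat.card P : ℝ)⁻¹ * ∑ v : P, ka φ μ v * r v * Complex.normSq (yy g c v) : ℝ) : ℂ) := by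
      push_cast
      rw [h2]
      congr 1
      refine Finset.sum_congr rfl fun v _ => ?_
      rw [hF]
    exact_mod_cast h3
  have h4 : (0 : ℝ) < ∑ v : P, ka φ μ v * Complex.normSq (yy g c v) := by
    have h2 := sum_yy hT (fun _ => (1 : ℂ)) (fun f => if f * f = 1 then
      (Nat.card P : ℂ)⁻¹ * ∑ v : P, (ka φ μ v : ℂ) * (ev f v * 1) else 0) (fun f => by
        show (if f * f = 1 then _ else _) = _
        split_ifs with hf
        · rfl
        · have h3 := hT.sum_ka hf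
          simp only [mul_one]
          rw [h3, mul_zero]) g c
    have h3 : ∀ i, ∑ j, (c i : ℂ) * (c j : ℂ) * (if (g i * (g j)⁻¹) * (g i * (g j)⁻¹) = 1 then
        (Nat.card P : ℂ)⁻¹ * ∑ v : P, (ka φ μ v : ℂ) * (ev (g i * (g j)⁻¹) v * 1) else 0) =
        (c i : ℂ) ^ 2 := by
      intro i
      rw [Finset.sum_eq_single i]
      · rw [mul_inv_cancel, one_mul, if_pos rfl]
        have h5 : ∑ v : P, (ka φ μ v : ℂ) * (ev (1 : Ch P) v * 1) = Nat.card P := by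
          rw [← hT.sum_ka_one]
          exact Finset.sum_congr rfl fun v _ => by rw [ev_one, mul_one, mul_one]
        rw [h5, inv_mul_cancel₀ (by exact_mod_cast hP.ne')]; ring
      · intro j _ hj
        rw [if_neg (hg i j (Ne.symm hj)), mul_zero]
      · intro h'; exact absurd (Finset.mem_univ i) h'
    simp only [h3] at h2
    have h6 : (∑ i, c i ^ 2 : ℝ) = (Nat.card P : ℝ)⁻¹ * ∑ v : P, ka φ μ v *
        Complex.normSq (yy g c v) := by
      have : ((∑ i, c i ^ 2 : ℝ) : ℂ) = (((Nat.card P : ℝ)⁻¹ * ∑ v : P, ka φ μ v *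
          Complex.normSq (yy g c v) : ℝ) : ℂ) := by
        push_cast
        rw [h2]
        congr 1
        exact Finset.sum_congr rfl fun v _ => by rw [mul_one]
      exact_mod_cast this
    have h7 : 0 < ∑ i, c i ^ 2 := by
      obtain ⟨i, hi⟩ := hc
      refine Finset.sum_pos' (fun j _ => sq_nonneg _) ⟨i, Finset.mem_univ _, by positivity⟩
    rw [h6] at h7
    by_contra hn
    push Not at hn
    have : (Nat.card P : ℝ)⁻¹ * ∑ v : P, ka φ μ v * Complex.normSq (yy g c v) ≤ 0 :=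
      mul_nonpos_of_nonneg_of_nonpos (inv_nonneg.2 hP.le) hn
    linarith
  rw [h1]
  apply mul_pos (inv_pos.2 hP)
  obtain ⟨v, -, hv⟩ : ∃ v ∈ Finset.univ, 0 < ka φ μ v * Complex.normSq (yy g c v) := by
    by_contra hn
    push Not at hn
    exact absurd h4 (not_lt.2 (Finset.sum_nonpos hn))
  refine Finset.sum_pos' (fun v _ => ?_) ⟨v, Finset.mem_univ _, ?_⟩
  · exact mul_nonneg (mul_nonneg (hT.ka_nonneg v) (hr v).le) (Complex.normSq_nonneg _)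
  · have : ka φ μ v * r v * Complex.normSq (yy g c v) = r v * (ka φ μ v * Complex.normSq (yy g c v)) := by
      ring
    rw [this]
    exact mul_pos (hr v) hv

end PD

section Diag
variable {F : P → ℂ} {a : Ch P → ℤ}

theorem a_inv (h : FD φ F a) (hreal : ∀ v, conj (F v) = F v) (f : Ch P) : a f⁻¹ = a f := by
  have h1 : (a f⁻¹ : ℂ) = a f := by
    have h2 : conj (a f : ℂ) = (a f : ℂ) := map_intCast _ _
    rw [← h2, h.coef, h.coef, map_mul, map_sum, map_inv₀, Complex.conj_natCast]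
    congr 1
    refine Finset.sum_congr rfl fun v _ => ?_
    rw [map_mul, hreal, ev_inv]
  exact_mod_cast h1

theorem inv_of_sq {g : Ch P} (hg : g * g = 1) : g⁻¹ = g := inv_eq_of_mul_eq_one_right hg

theorem S_inv (hT : Tri φ μ) (h : FD φ F a) (hreal : ∀ v, conj (F v) = F v) (f : Ch P) :
    SS φ μ a f⁻¹ = SS φ μ a f := by
  unfold SS
  have h1 : ∀ g : Ch P, g * g = 1 → a (f⁻¹ * g) = a (f * g) := by
    intro g hg
    rw [← a_inv h hreal (f * g), mul_inv, inv_of_sq hg]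
  rw [a_inv h hreal, h1 _ hT.m2, h1 _ hT.wm2, h1 _ hT.wwm2]

theorem S_lt (hT : Tri φ μ) (h : FD φ F a) (hpos : ∀ v, ∃ r : ℝ, 0 < r ∧ F v = r) {f : Ch P}
    (hf : ¬ f * f = 1) : |SS φ μ a f| < SS φ μ a 1 := by
  have hreal : ∀ v, conj (F v) = F v := by
    intro v
    obtain ⟨r, -, hr⟩ := hpos v
    rw [hr, Complex.conj_ofReal]
  have key : ∀ s : ℝ, s ^ 2 = 1 → 0 < 2 * (SS φ μ a 1 : ℝ) + 2 * s * (SS φ μ a f : ℝ) := by
    intro s hs
    have h1 := pd hT h hpos (ι := Fin 2) ![1, f] ![1, s] (by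
      intro i j hij
      fin_cases i <;> fin_cases j <;> simp_all
      · intro h'
        apply hf
        rw [← mul_inv, inv_eq_one] at h'
        exact h') ⟨0, by simp⟩
    simp only [Fin.sum_univ_two, Matrix.cons_val_zero, Matrix.cons_val_one, one_mul, mul_one,
      inv_one, mul_inv_cancel] at h1
    rw [S_inv hT h hreal] at h1
    have h5 : s * s * (SS φ μ a 1 : ℝ) = SS φ μ a 1 := by rw [← sq, hs, one_mul]
    rw [h5] at h1
    linarith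
  have h1 := key 1 (by norm_num)
  have h2 := key (-1) (by norm_num)
  rw [abs_lt]
  constructor
  · have : (-(SS φ μ a 1 : ℝ)) < SS φ μ a f := by linarith
    exact_mod_cast this
  · have : (SS φ μ a f : ℝ) < SS φ μ a 1 := by linarith
    exact_mod_cast this

theorem S_one_pos (hT : Tri φ μ) (h : FD φ F a) (hpos : ∀ v, ∃ r : ℝ, 0 < r ∧ F v = r) :
    0 < SS φ μ a 1 := by
  have h1 := pd hT h hpos (ι := Fin 1) ![1] ![1] (by
    intro i j hij
    exact absurd (Subsingleton.elim i j) hij) ⟨0, by simp⟩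
  simp only [Finset.univ_unique, Fin.default_eq_zero, Fin.isValue, Matrix.cons_val_fin_one, inv_one,
    mul_one, Finset.sum_singleton, one_mul] at h1
  exact_mod_cast h1

/-- five vectors -/
theorem five (hT : Tri φ μ) (h : FD φ F a) (hpos : ∀ v, ∃ r : ℝ, 0 < r ∧ F v = r)
    (h2 : SS φ μ a 1 = 2) (ρ κ₁ κ₂ κ₃ : Ch P)
    (hv0 : ¬ ρ * ρ = 1) (hv1 : ¬ (ρ * κ₁⁻¹) * (ρ * κ₁⁻¹) = 1) (hv2 : ¬ (ρ * κ₂⁻¹) * (ρ * κ₂⁻¹) = 1)
    (hv3 : ¬ (ρ * κ₃⁻¹) * (ρ * κ₃⁻¹) = 1)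
    (hs0 : SS φ μ a ρ ^ 2 = 1) (hs1 : SS φ μ a (ρ * κ₁⁻¹) ^ 2 = 1)
    (hs2 : SS φ μ a (ρ * κ₂⁻¹) ^ 2 = 1) (hs3 : SS φ μ a (ρ * κ₃⁻¹) ^ 2 = 1)
    (w1 : ¬ κ₁ * κ₁ = 1) (w2 : ¬ κ₂ * κ₂ = 1) (w3 : ¬ κ₃ * κ₃ = 1)
    (w12 : ¬ (κ₁ * κ₂⁻¹) * (κ₁ * κ₂⁻¹) = 1) (w13 : ¬ (κ₁ * κ₃⁻¹) * (κ₁ * κ₃⁻¹) = 1)
    (w23 : ¬ (κ₂ * κ₃⁻¹) * (κ₂ * κ₃⁻¹) = 1)
    (z1 : SS φ μ a κ₁ = 0) (z2 : SS φ μ a κ₂ = 0) (z3 : SS φ μ a κ₃ = 0)
    (z12 : SS φ μ a (κ₁ * κ₂⁻¹) = 0) (z13 : SS φ μ a (κ₁ * κ₃⁻¹) = 0)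
    (z23 : SS φ μ a (κ₂ * κ₃⁻¹) = 0) : False := by
  have hreal : ∀ v, conj (F v) = F v := by
    intro v
    obtain ⟨r, -, hr⟩ := hpos v
    rw [hr, Complex.conj_ofReal]
  have hinv : ∀ f g : Ch P, SS φ μ a (g * f⁻¹) = SS φ μ a (f * g⁻¹) := by
    intro f g
    rw [← S_inv hT h hreal (f * g⁻¹), mul_inv, inv_inv, mul_comm]
  have hvs : ∀ f g : Ch P, ¬ (f * g⁻¹) * (f * g⁻¹) = 1 → ¬ (g * f⁻¹) * (g * f⁻¹) = 1 := by
    intro f g hfg h'
    apply hfg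
    have : f * g⁻¹ = (g * f⁻¹)⁻¹ := by rw [mul_inv, inv_inv, mul_comm]
    rw [this, ← mul_inv, h', inv_one]
  have hone : ∀ f : Ch P, ¬ f * f = 1 → ¬ f⁻¹ * f⁻¹ = 1 := by
    intro f hf h'
    apply hf
    rw [← mul_inv, inv_eq_one] at h'
    exact h'
  have h1 := pd hT h hpos (ι := Fin 5) ![ρ, 1, κ₁, κ₂, κ₃]
    ![1, -(SS φ μ a ρ : ℝ) / 2, -(SS φ μ a (ρ * κ₁⁻¹) : ℝ) / 2, -(SS φ μ a (ρ * κ₂⁻¹) : ℝ) / 2,
      -(SS φ μ a (ρ * κ₃⁻¹) : ℝ) / 2] (by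
      intro i j hij
      fin_cases i <;> fin_cases j <;> first
        | exact absurd rfl hij
        | simp only [Fin.isValue, Fin.zero_eta, Fin.mk_one, Fin.reduceFinMk, Matrix.cons_val,
            Matrix.cons_val_zero, Matrix.cons_val_one, inv_one, mul_one, one_mul]
          first
            | exact hv0 | exact hv1 | exact hv2 | exact hv3 | exact w12 | exact w13 | exact w23
            | exact w1 | exact w2 | exact w3
            | exact hone _ hv0 | exact hone _ w1 | exact hone _ w2 | exact hone _ w3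
            | exact hvs _ _ hv1 | exact hvs _ _ hv2 | exact hvs _ _ hv3
            | exact hvs _ _ w12 | exact hvs _ _ w13 | exact hvs _ _ w23) ⟨0, by simp⟩
  simp only [Fin.sum_univ_five, Fin.isValue, Matrix.cons_val, Matrix.cons_val_zero,
    Matrix.cons_val_one, inv_one, mul_one, one_mul, mul_inv_cancel, S_inv hT h hreal, h2,
    hinv ρ κ₁, hinv ρ κ₂, hinv ρ κ₃, hinv κ₁ κ₂, hinv κ₁ κ₃, hinv κ₂ κ₃, z1, z2, z3, z12, z13, z23] at h1
  have e0 : (SS φ μ a ρ : ℝ) ^ 2 = 1 := by exact_mod_cast hs0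
  have e1 : (SS φ μ a (ρ * κ₁⁻¹) : ℝ) ^ 2 = 1 := by exact_mod_cast hs1
  have e2 : (SS φ μ a (ρ * κ₂⁻¹) : ℝ) ^ 2 = 1 := by exact_mod_cast hs2
  have e3 : (SS φ μ a (ρ * κ₃⁻¹) : ℝ) ^ 2 = 1 := by exact_mod_cast hs3
  push_cast at h1
  nlinarith

end Diag

end CfsgLib.Qc
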