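import Mathlib
import Cfsg.Agent.LibQc2

/-!
# Homocyclic defect groups, III: exclusion of weight two (helper17)
-/

set_option autoImplicit false
set_option linter.unusedSectionVars false
set_option linter.style.haveILetI false
set_option linter.unusedSimpArgs false
set_option linter.unusedVariables false

namespace CfsgLib.Qc

open scoped ComplexConjugate BigOperators

universe u

variable {P : Type u} [Group P] [Fintype P] {φ : P ≃* P} {μ : Ch P}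

section Diag
variable {F : P → ℂ} {a : Ch P → ℤ}

theorem not_V_symm {f g : Ch P} (hfg : ¬ (f * g⁻¹) * (f * g⁻¹) = 1) :
    ¬ (g * f⁻¹) * (g * f⁻¹) = 1 := by
  intro h'
  apply hfg
  have : f * g⁻¹ = (g * f⁻¹)⁻¹ := by rw [mul_inv, inv_inv, mul_comm]
  rw [this, ← mul_inv, h', inv_one]

theorem not_V_inv {f : Ch P} (hf : ¬ f * f = 1) : ¬ f⁻¹ * f⁻¹ = 1 := by
  intro h'
  apply hf
  rw [← mul_inv, inv_eq_one] at h'
  exact h'

theorem sq_inv (x y : Ch P) : x * x * (y * y)⁻¹ = (x * y⁻¹) * (x * y⁻¹) := by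
  rw [mul_inv]
  exact mul_mul_mul_comm x x y⁻¹ y⁻¹

/-- seven vectors -/
theorem seven (hT : Tri φ μ) (h : FD φ F a) (hpos : ∀ v, ∃ r : ℝ, 0 < r ∧ F v = r)
    (h2 : SS φ μ a 1 = 2) (ρ : Fin 3 → Ch P)
    (v0 : ∀ i, ¬ ρ i * ρ i = 1) (v1 : ∀ i j, i ≠ j → ¬ (ρ i * (ρ j)⁻¹) * (ρ i * (ρ j)⁻¹) = 1)
    (v2 : ∀ i j, i ≠ j → ¬ (ρ i * (ρ j * ρ j)⁻¹) * (ρ i * (ρ j * ρ j)⁻¹) = 1)
    (v3 : ∀ i, ¬ (ρ i * ρ i) * (ρ i * ρ i) = 1)
    (v4 : ∀ i j, i ≠ j → ¬ (ρ i * ρ i * (ρ j * ρ j)⁻¹) * (ρ i * ρ i * (ρ j * ρ j)⁻¹) = 1)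
    (s0 : ∀ i, SS φ μ a (ρ i) ^ 2 = 1) (s1 : ∀ i j, i ≠ j → SS φ μ a (ρ i * (ρ j)⁻¹) = 0)
    (s2 : ∀ i j, i ≠ j → SS φ μ a (ρ i * (ρ j * ρ j)⁻¹) = 0)
    (s3 : ∀ i, SS φ μ a (ρ i * ρ i) = 0)
    (s4 : ∀ i j, i ≠ j → SS φ μ a (ρ i * ρ i * (ρ j * ρ j)⁻¹) = 0) : False := by
  have hreal : ∀ v, conj (F v) = F v := by
    intro v
    obtain ⟨r, -, hr⟩ := hpos v
    rw [hr, Complex.conj_ofReal]
  have hinv : ∀ f g : Ch P, SS φ μ a (g * f⁻¹) = SS φ μ a (f * g⁻¹) := by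
    intro f g
    rw [← S_inv hT h hreal (f * g⁻¹), mul_inv, inv_inv, mul_comm]
  have hc1 : ∀ i, ρ i * (ρ i * ρ i)⁻¹ = (ρ i)⁻¹ := by
    intro i
    rw [mul_inv, ← mul_assoc, mul_inv_cancel, one_mul]
  set g : Fin 3 ⊕ Option (Fin 3) → Ch P := Sum.elim ρ (fun o => o.elim 1 (fun j => ρ j * ρ j)) with hg
  set c : Fin 3 ⊕ Option (Fin 3) → ℝ := Sum.elim (fun i => (SS φ μ a (ρ i) : ℝ))
    (fun o => o.elim (-3 / 2) (fun _ => -1 / 2)) with hcdef
  have h1 := pd hT h hpos g c (by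
    rintro (i | _ | i) (j | _ | j) hij
    · exact v1 i j (fun h' => hij (by rw [h']))
    · show ¬ (ρ i * (1 : Ch P)⁻¹) * (ρ i * (1 : Ch P)⁻¹) = 1
      rw [inv_one, mul_one]; exact v0 i
    · show ¬ (ρ i * (ρ j * ρ j)⁻¹) * (ρ i * (ρ j * ρ j)⁻¹) = 1
      by_cases hij' : i = j
      · subst hij'; rw [hc1]; exact not_V_inv (v0 i)
      · exact v2 i j hij'
    · show ¬ (1 * (ρ j)⁻¹) * (1 * (ρ j)⁻¹) = 1
      rw [one_mul]; exact not_V_inv (v0 j)
    · exact absurd rfl hij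
    · show ¬ (1 * (ρ j * ρ j)⁻¹) * (1 * (ρ j * ρ j)⁻¹) = 1
      rw [one_mul]; exact not_V_inv (v3 j)
    · show ¬ (ρ i * ρ i * (ρ j)⁻¹) * (ρ i * ρ i * (ρ j)⁻¹) = 1
      apply not_V_symm
      by_cases hij' : j = i
      · subst hij'; rw [hc1]; exact not_V_inv (v0 j)
      · exact v2 j i hij'
    · show ¬ (ρ i * ρ i * (1 : Ch P)⁻¹) * (ρ i * ρ i * (1 : Ch P)⁻¹) = 1
      rw [inv_one, mul_one]; exact v3 i
    · exact v4 i j (fun h' => hij (by rw [h']))) ⟨Sum.inr none, by simp [hcdef]⟩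
  have g0 : ∀ i, g (Sum.inl i) = ρ i := fun i => rfl
  have g1 : g (Sum.inr none) = 1 := rfl
  have g2 : ∀ i, g (Sum.inr (some i)) = ρ i * ρ i := fun i => rfl
  have c0 : ∀ i, c (Sum.inl i) = (SS φ μ a (ρ i) : ℝ) := fun i => rfl
  have c1 : c (Sum.inr none) = -3 / 2 := rfl
  have c2 : ∀ i, c (Sum.inr (some i)) = -1 / 2 := fun i => rfl
  have n01 : (0 : Fin 3) ≠ 1 := by decide
  have n02 : (0 : Fin 3) ≠ 2 := by decide
  have n12 : (1 : Fin 3) ≠ 2 := by decide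
  simp only [Fintype.sum_sum_type, Fintype.sum_option, Fin.sum_univ_three, g0, g1, g2, c0, c1, c2,
    mul_inv_cancel, h2, inv_one, mul_one, one_mul, S_inv hT h hreal, s3, hc1,
    s1 _ _ n01, s1 _ _ n01.symm, s1 _ _ n02, s1 _ _ n02.symm, s1 _ _ n12, s1 _ _ n12.symm,
    s2 _ _ n01, s2 _ _ n01.symm, s2 _ _ n02, s2 _ _ n02.symm, s2 _ _ n12, s2 _ _ n12.symm,
    s4 _ _ n01, s4 _ _ n01.symm, s4 _ _ n02, s4 _ _ n02.symm, s4 _ _ n12, s4 _ _ n12.symm,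
    hinv (ρ 0) (ρ 0 * ρ 0), hinv (ρ 0) (ρ 1 * ρ 1), hinv (ρ 0) (ρ 2 * ρ 2),
    hinv (ρ 1) (ρ 0 * ρ 0), hinv (ρ 1) (ρ 1 * ρ 1), hinv (ρ 1) (ρ 2 * ρ 2),
    hinv (ρ 2) (ρ 0 * ρ 0), hinv (ρ 2) (ρ 1 * ρ 1), hinv (ρ 2) (ρ 2 * ρ 2)] at h1
  have e0 : (SS φ μ a (ρ 0) : ℝ) ^ 2 = 1 := by exact_mod_cast s0 0
  have e1 : (SS φ μ a (ρ 1) : ℝ) ^ 2 = 1 := by exact_mod_cast s0 1
  have e2 : (SS φ μ a (ρ 2) : ℝ) ^ 2 = 1 := by exact_mod_cast s0 2
  push_cast at h1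
  nlinarith

/-- units -/
theorem unit1 (hT : Tri φ μ) {σ : Ch P} {k : ℕ} (h : (σ * (w φ σ)⁻¹) ^ k = 1) : σ ^ k = 1 := by
  have h1 : w φ (σ ^ k) = σ ^ k := by
    rw [mul_pow, inv_pow, ← map_pow, mul_inv_eq_one] at h
    exact h.symm
  exact hT.fixw h1

theorem unit1' (hT : Tri φ μ) {σ : Ch P} {k : ℕ} (h : (σ * (w φ (w φ σ))⁻¹) ^ k = 1) : σ ^ k = 1 := by
  have h1 : w φ (w φ (σ ^ k)) = σ ^ k := by
    rw [mul_pow, inv_pow, ← map_pow, ← map_pow, mul_inv_eq_one] at h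
    exact h.symm
  exact hT.fixww h1

theorem seven_fix (hT : Tri φ μ) {τ : Ch P} (h : τ = (w φ τ) ^ 2) : τ = 1 := by
  apply hT.odd_pow (k := 7) (by norm_num)
  have h1 : w φ τ = (w φ (w φ τ)) ^ 2 := by
    conv_lhs => rw [h]
    rw [map_pow]
  have h2 : w φ (w φ τ) = τ ^ 2 := by
    conv_lhs => rw [h1]
    rw [map_pow, hT.www]
  have h3 : τ = τ ^ 8 := by
    calc τ = (w φ τ) ^ 2 := h
      _ = ((w φ (w φ τ)) ^ 2) ^ 2 := by rw [← h1]
      _ = τ ^ 8 := by rw [h2, ← pow_mul, ← pow_mul]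
  have h4 : τ * τ ^ 7 = τ * 1 := by
    rw [mul_one, ← pow_succ']
    exact h3.symm
  exact mul_left_cancel h4

theorem unit2 (hT : Tri φ μ) {σ : Ch P} {k : ℕ} (h : (σ * (w φ σ * w φ σ)⁻¹) ^ k = 1) : σ ^ k = 1 := by
  apply seven_fix hT
  rw [mul_pow, inv_pow, mul_inv_eq_one] at h
  calc σ ^ k = (w φ σ * w φ σ) ^ k := h
    _ = (w φ (σ ^ k)) ^ 2 := by rw [map_pow, mul_pow, pow_two]

theorem unit2' (hT : Tri φ μ) {σ : Ch P} {k : ℕ}
    (h : (σ * (w φ (w φ σ) * w φ (w φ σ))⁻¹) ^ k = 1) : σ ^ k = 1 := by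
  have h5 : σ ^ k = (w φ (w φ (σ ^ k))) ^ 2 := by
    rw [mul_pow, inv_pow, mul_inv_eq_one] at h
    calc σ ^ k = (w φ (w φ σ) * w φ (w φ σ)) ^ k := h
      _ = (w φ (w φ (σ ^ k))) ^ 2 := by rw [map_pow, map_pow, mul_pow, pow_two]
  generalize σ ^ k = τ at h5 ⊢
  have h6 : w φ τ = τ ^ 2 := by
    conv_lhs => rw [h5]
    rw [map_pow, hT.www]
  -- `w τ = τ ^ 2`
  apply hT.odd_pow (k := 7) (by norm_num)
  have h7 : w φ (w φ τ) = τ ^ 4 := by rw [h6, map_pow, h6, ← pow_mul]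
  have h8 : τ = τ ^ 8 := by
    calc τ = (w φ (w φ τ)) ^ 2 := h5
      _ = τ ^ 8 := by rw [h7, ← pow_mul]
  have h4 : τ * τ ^ 7 = τ * 1 := by
    rw [mul_one, ← pow_succ']
    exact h8.symm
  exact mul_left_cancel h4

theorem pow_two' (x : Ch P) : x * x = x ^ 2 := (pow_two x).symm

theorem pow_four' (x : Ch P) : x * x * (x * x) = x ^ 4 := by
  rw [← pow_two, ← pow_two, ← pow_mul]

theorem zid1 (x y : Ch P) : (x * y)⁻¹ * (x * x) = x * y⁻¹ := by
  rw [mul_inv, mul_comm x⁻¹ y⁻¹, mul_assoc y⁻¹, inv_mul_cancel_left, mul_comm]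

theorem zid2 (x y : Ch P) : (x * y)⁻¹ * (y * y) = (x * y⁻¹)⁻¹ := by
  rw [mul_inv x y, mul_assoc, inv_mul_cancel_left, mul_inv, inv_inv]

theorem zid3 (x y : Ch P) : (x * y)⁻¹ * (x * y)⁻¹ * (x * x) = (y * y)⁻¹ := by
  rw [← mul_inv, mul_mul_mul_comm, mul_inv (x * x), mul_comm (x * x)⁻¹, mul_assoc, inv_mul_cancel,
    mul_one]

theorem zid4 (x y : Ch P) : (x * y)⁻¹ * (x * y)⁻¹ * (y * y) = (x * x)⁻¹ := by
  rw [← mul_inv, mul_mul_mul_comm, mul_inv (x * x), mul_assoc, inv_mul_cancel, mul_one]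

/-- main vanishing result -/
theorem vanish (hT : Tri φ μ) (h : FD φ F a) (hpos : ∀ v, ∃ r : ℝ, 0 < r ∧ F v = r)
    (h2 : SS φ μ a 1 = 2) : ∀ (n : ℕ) (ρ : Ch P), orderOf ρ = n → ¬ ρ * ρ = 1 →
      SS φ μ a ρ = 0 := by
  have hreal : ∀ v, conj (F v) = F v := by
    intro v
    obtain ⟨r, -, hr⟩ := hpos v
    rw [hr, Complex.conj_ofReal]
  intro n
  induction n using Nat.strong_induction_on with
  | _ n ih =>
  intro ρ hn hρ
  by_contra hS
  have hsq : ∀ x : Ch P, ¬ x * x = 1 → SS φ μ a x ≠ 0 → SS φ μ a x ^ 2 = 1 := by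
    intro x hx hx0
    have h1 := S_lt hT h hpos hx
    rw [h2, abs_lt] at h1
    have h3 : SS φ μ a x = 1 ∨ SS φ μ a x = -1 := by omega
    rcases h3 with h3 | h3 <;> rw [h3] <;> norm_num
  have hodd : ∀ x : Ch P, SS φ μ a x ^ 2 = 1 → ¬ (2 : ℤ) ∣ SS φ μ a x := by
    intro x hx hd
    obtain ⟨k, hk⟩ := hd
    rw [hk] at hx
    have : (2 : ℤ) ∣ 1 := ⟨2 * k ^ 2, by rw [← hx]; ring⟩
    norm_num at this
  have hw : ∀ x : Ch P, ¬ x * x = 1 → ¬ w φ x * w φ x = 1 := by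
    intro x hx h'
    apply hx
    apply hT.w_inj
    rw [map_mul, h', map_one]
  have hSw : ∀ x : Ch P, ¬ x * x = 1 → SS φ μ a x ^ 2 = 1 → SS φ μ a (w φ x) ^ 2 = 1 := by
    intro x hx hx1
    apply hsq _ (hw x hx)
    intro h0
    apply hodd x hx1
    have h3 := h.S_parity hT x
    rw [h0] at h3
    have h4 : (2 : ℤ) ∣ -(SS φ μ a x) := by rwa [zero_sub] at h3
    exact (dvd_neg.1 h4)
  have hρ1 := hsq ρ hρ hS
  by_cases h4 : ρ ^ 4 = 1
  · -- order four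
    have key : ∀ x : Ch P, SS φ μ a x ^ 2 = 1 → x * x = w φ μ → False := by
      intro x hx hx2
      have e1 : x⁻¹ = x * w φ μ := by
        rw [← hx2, inv_eq_iff_mul_eq_one]
        have : x ^ 4 = 1 := by rw [← pow_four', hx2]; exact hT.wm2
        rw [← this]
        rw [← pow_four']
        simp only [mul_assoc]
      have e2 := S_inv hT h hreal x
      rw [e1, FD.S_wmu hT] at e2
      have e3 : SS φ μ a x = 0 := by omega
      rw [e3] at hx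
      norm_num at hx
    have h5 := hT.four' (f := ρ * ρ) (by rw [pow_four', h4])
    rcases h5 with h5 | h5 | h5 | h5
    · exact hρ h5
    · exact key (w φ ρ) (hSw ρ hρ hρ1) (by rw [← map_mul, h5])
    · exact key ρ hρ1 h5
    · exact key (w φ (w φ ρ)) (hSw _ (hw _ hρ) (hSw ρ hρ hρ1)) (by
        rw [← map_mul, ← map_mul, h5, hT.www])
  · -- larger order
    obtain ⟨N, hN⟩ := hT.pow2
    have hn2 : 2 ∣ n := by
      have h5 : n ∣ 2 ^ N := by rw [← hn]; exact orderOf_dvd_of_pow_eq_one (hN ρ)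
      obtain ⟨k, -, hk⟩ := (Nat.dvd_prime_pow Nat.prime_two).1 h5
      rcases Nat.eq_zero_or_pos k with h0 | h0
      · rw [h0, pow_zero] at hk
        exfalso
        apply hρ
        rw [hk] at hn
        rw [orderOf_eq_one_iff.1 hn, one_mul]
      · rw [hk]; exact dvd_pow_self 2 h0.ne'
    have hnpos : 0 < n := by
      rw [← hn]
      exact orderOf_pos_iff.2 (isOfFinOrder_iff_pow_eq_one.2 ⟨2 ^ N, by positivity, hN ρ⟩)
    have small : ∀ σ : Ch P, σ ^ n = 1 → ¬ σ ^ 4 = 1 → SS φ μ a (σ * σ) = 0 := by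
      intro σ hσ hσ4
      apply ih (orderOf (σ * σ)) _ (σ * σ) rfl
      · rw [pow_four']; exact hσ4
      · obtain ⟨k, hk⟩ := hn2
        have h5 : (σ * σ) ^ k = 1 := by rw [← pow_two, ← pow_mul, ← hk, hσ]
        have h6 : orderOf (σ * σ) ≤ k := Nat.le_of_dvd (by omega) (orderOf_dvd_of_pow_eq_one h5)
        omega
    -- the orbit
    set R : Ch P → Prop := fun x => x ^ n = 1 ∧ ¬ x ^ 4 = 1 ∧ SS φ μ a x ^ 2 = 1 with hR
    have hRV : ∀ x : Ch P, ¬ x ^ 4 = 1 → ¬ x * x = 1 := by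
      intro x hx h'
      apply hx
      rw [← pow_four', h', one_mul]
    have R0 : R ρ := ⟨by rw [← hn]; exact pow_orderOf_eq_one ρ, h4, hρ1⟩
    have Rw : ∀ x, R x → R (w φ x) := by
      rintro x ⟨r1, r2, r3⟩
      refine ⟨by rw [← map_pow, r1, map_one], ?_, hSw x (hRV x r2) r3⟩
      rw [← map_pow]
      intro h'
      exact r2 (hT.w_inj (by rw [h', map_one]))
    -- general facts for pairs
    have G1 : ∀ x y, R x → R y → (y = w φ x ∨ y = w φ (w φ x)) → ∀ k, (x * y⁻¹) ^ k = 1 → x ^ k = 1 := by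
      rintro x y hx hy (rfl | rfl) k hk
      · exact unit1 hT hk
      · exact unit1' hT hk
    have G2 : ∀ x y, R x → R y → (y = w φ x ∨ y = w φ (w φ x)) →
        ∀ k, (x * (y * y)⁻¹) ^ k = 1 → x ^ k = 1 := by
      rintro x y hx hy (rfl | rfl) k hk
      · exact unit2 hT hk
      · exact unit2' hT hk
    have hgp : ∀ x y : Ch P, (y = w φ x ∨ y = w φ (w φ x)) → (x = w φ y ∨ x = w φ (w φ y)) := by
      rintro x y (rfl | rfl)
      · right; rw [hT.www]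
      · left; rw [hT.www]
    have pn : ∀ x y : Ch P, x ^ n = 1 → y ^ n = 1 → (x * y⁻¹) ^ n = 1 := by
      intro x y hx hy
      rw [mul_pow, inv_pow, hx, hy, inv_one, one_mul]
    have F4 : ∀ x y, R x → R y → (y = w φ x ∨ y = w φ (w φ x)) →
        SS φ μ a (x * x * (y * y)⁻¹) = 0 := by
      intro x y hx hy hxy
      rw [sq_inv]
      exact small _ (pn _ _ hx.1 hy.1) (fun h' => hx.2.1 (G1 x y hx hy hxy 4 h'))
    have F4v : ∀ x y, R x → R y → (y = w φ x ∨ y = w φ (w φ x)) →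
        ¬ (x * x * (y * y)⁻¹) * (x * x * (y * y)⁻¹) = 1 := by
      intro x y hx hy hxy h'
      rw [sq_inv, pow_four'] at h'
      exact hx.2.1 (G1 x y hx hy hxy 4 h')
    have F3 : ∀ x, R x → SS φ μ a (x * x) = 0 := fun x hx => small x hx.1 hx.2.1
    have F3v : ∀ x, R x → ¬ (x * x) * (x * x) = 1 := fun x hx => by
      rw [pow_four']; exact hx.2.1
    have F2v : ∀ x y, R x → R y → (y = w φ x ∨ y = w φ (w φ x)) →
        ¬ (x * (y * y)⁻¹) * (x * (y * y)⁻¹) = 1 := by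
      intro x y hx hy hxy h'
      rw [pow_two'] at h'
      exact hRV x hx.2.1 (by rw [pow_two']; exact G2 x y hx hy hxy 2 h')
    have F1v : ∀ x y, R x → R y → (y = w φ x ∨ y = w φ (w φ x)) →
        ¬ (x * y⁻¹) * (x * y⁻¹) = 1 := by
      intro x y hx hy hxy h'
      rw [pow_two'] at h'
      exact hRV x hx.2.1 (by rw [pow_two']; exact G1 x y hx hy hxy 2 h')
    have hxinv : ∀ x : Ch P, x * (x * x)⁻¹ = x⁻¹ := fun x => by
      rw [mul_inv, ← mul_assoc, mul_inv_cancel, one_mul]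
    have F2 : ∀ x y, R x → R y → (y = w φ x ∨ y = w φ (w φ x)) →
        SS φ μ a (x * (y * y)⁻¹) = 0 := by
      intro x y hx hy hxy
      by_contra hne
      have hs := hsq _ (F2v x y hx hy hxy) hne
      have e3 : x * (x * x * (y * y)⁻¹)⁻¹ = (x * (y * y)⁻¹)⁻¹ := by
        rw [mul_assoc x x (y * y)⁻¹, mul_inv x (x * (y * y)⁻¹), mul_inv_cancel_left]
      have e13 : x * x * (x * x * (y * y)⁻¹)⁻¹ = y * y := by
        rw [mul_inv (x * x), mul_inv_cancel_left, inv_inv]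
      have e23 : y * y * (x * x * (y * y)⁻¹)⁻¹ =
          ((x * (y * y)⁻¹) * (x * (y * y)⁻¹))⁻¹ := by
        rw [mul_mul_mul_comm x (y * y)⁻¹ x (y * y)⁻¹, ← mul_assoc (x * x),
          mul_inv (x * x * (y * y)⁻¹), inv_inv (y * y), mul_comm]
      have hz : SS φ μ a ((x * (y * y)⁻¹) * (x * (y * y)⁻¹)) = 0 := by
        apply small
        · apply pn _ _ hx.1
          rw [mul_pow, hy.1, one_mul]
        · intro h'
          exact hx.2.1 (G2 x y hx hy hxy 4 h')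
      refine five hT h hpos h2 x (x * x) (y * y) (x * x * (y * y)⁻¹) (hRV x hx.2.1) ?_
        (F2v x y hx hy hxy) ?_ hx.2.2 ?_ hs ?_ (F3v x hx) (F3v y hy) (F4v x y hx hy hxy)
        (F4v x y hx hy hxy) ?_ ?_ (F3 x hx) (F3 y hy) (F4 x y hx hy hxy) (F4 x y hx hy hxy) ?_ ?_
      · rw [hxinv]; exact not_V_inv (hRV x hx.2.1)
      · rw [e3]; exact not_V_inv (F2v x y hx hy hxy)
      · rw [hxinv, S_inv hT h hreal]; exact hx.2.2
      · rw [e3, S_inv hT h hreal]; exact hs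
      · rw [e13]; exact F3v y hy
      · rw [e23]
        apply not_V_inv
        rw [pow_four']
        intro h'
        exact hx.2.1 (G2 x y hx hy hxy 4 h')
      · rw [e13]; exact F3 y hy
      · rw [e23, S_inv hT h hreal]; exact hz
    have Rz : ∀ x y, R x → R y → (y = w φ x ∨ y = w φ (w φ x)) → R (x * y)⁻¹ := by
      rintro x y hx hy (rfl | rfl)
      · have : (x * w φ x)⁻¹ = w φ (w φ x) := inv_eq_of_mul_eq_one_right (hT.w3 x)
        rw [this]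
        exact Rw _ (Rw _ hx)
      · have : (x * w φ (w φ x))⁻¹ = w φ x := inv_eq_of_mul_eq_one_right (by
          rw [mul_assoc, mul_comm (w φ (w φ x)), ← mul_assoc]; exact hT.w3 x)
        rw [this]
        exact Rw _ hx
    have F1 : ∀ x y, R x → R y → (y = w φ x ∨ y = w φ (w φ x)) →
        SS φ μ a (x * y⁻¹) = 0 := by
      intro x y hx hy hxy
      by_contra hne
      have hs := hsq _ (F1v x y hx hy hxy) hne
      have hz := Rz x y hx hy hxy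
      set z := (x * y)⁻¹ with hzdef
      have ez2 : z * (x * x)⁻¹⁻¹ = x * y⁻¹ := by rw [inv_inv]; exact zid1 x y
      have ez3 : z * (y * y)⁻¹⁻¹ = (x * y⁻¹)⁻¹ := by rw [inv_inv]; exact zid2 x y
      have e12 : z * z * (x * x)⁻¹⁻¹ = (y * y)⁻¹ := by rw [inv_inv]; exact zid3 x y
      have e13 : z * z * (y * y)⁻¹⁻¹ = (x * x)⁻¹ := by rw [inv_inv]; exact zid4 x y
      have e23 : (x * x)⁻¹ * (y * y)⁻¹⁻¹ = (x * x * (y * y)⁻¹)⁻¹ := by
        rw [mul_inv (x * x)]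
      refine five hT h hpos h2 z (z * z) (x * x)⁻¹ (y * y)⁻¹ (hRV z hz.2.1) ?_ ?_ ?_ hz.2.2
        ?_ ?_ ?_ (F3v z hz) (not_V_inv (F3v x hx)) (not_V_inv (F3v y hy)) ?_ ?_ ?_ (F3 z hz) ?_ ?_ ?_ ?_ ?_
      · rw [hxinv]; exact not_V_inv (hRV z hz.2.1)
      · rw [ez2]; exact F1v x y hx hy hxy
      · rw [ez3]; exact not_V_inv (F1v x y hx hy hxy)
      · rw [hxinv, S_inv hT h hreal]; exact hz.2.2
      · rw [ez2]; exact hs
      · rw [ez3, S_inv hT h hreal]; exact hs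
      · rw [e12]; exact not_V_inv (F3v y hy)
      · rw [e13]; exact not_V_inv (F3v x hx)
      · rw [e23]; exact not_V_inv (F4v x y hx hy hxy)
      · rw [S_inv hT h hreal]; exact F3 x hx
      · rw [S_inv hT h hreal]; exact F3 y hy
      · rw [e12, S_inv hT h hreal]; exact F3 y hy
      · rw [e13, S_inv hT h hreal]; exact F3 x hx
      · rw [e23, S_inv hT h hreal]; exact F4 x y hx hy hxy
    set r : Fin 3 → Ch P := ![ρ, w φ ρ, w φ (w φ ρ)] with hr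
    have hRr : ∀ i, R (r i) := by
      intro i
      fin_cases i
      · exact R0
      · exact Rw _ R0
      · exact Rw _ (Rw _ R0)
    have hp : ∀ i j, i ≠ j → (r j = w φ (r i) ∨ r j = w φ (w φ (r i))) := by
      have e01 : r 1 = w φ (r 0) := rfl
      have e02 : r 2 = w φ (w φ (r 0)) := rfl
      have e12 : r 2 = w φ (r 1) := rfl
      intro i j hij
      fin_cases i <;> fin_cases j <;> first
        | exact absurd rfl hij
        | exact Or.inl e01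
        | exact Or.inr e02
        | exact Or.inl e12
        | exact hgp _ _ (Or.inl e01)
        | exact hgp _ _ (Or.inr e02)
        | exact hgp _ _ (Or.inl e12)
    exact seven hT h hpos h2 r (fun i => hRV _ (hRr i).2.1)
      (fun i j hij => F1v _ _ (hRr i) (hRr j) (hp i j hij))
      (fun i j hij => F2v _ _ (hRr i) (hRr j) (hp i j hij))
      (fun i => F3v _ (hRr i)) (fun i j hij => F4v _ _ (hRr i) (hRr j) (hp i j hij))
      (fun i => (hRr i).2.2) (fun i j hij => F1 _ _ (hRr i) (hRr j) (hp i j hij))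
      (fun i j hij => F2 _ _ (hRr i) (hRr j) (hp i j hij))
      (fun i => F3 _ (hRr i)) (fun i j hij => F4 _ _ (hRr i) (hRr j) (hp i j hij))

end Diag

end CfsgLib.Qc
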