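import Mathlib
import Cfsg.Agent.LibQc3

/-!
# Homocyclic defect groups, IV: consequences (helper17)
-/

set_option autoImplicit false
set_option linter.unusedSectionVars false
set_option linter.style.haveILetI false
set_option linter.unusedSimpArgs false
set_option linter.unusedVariables false

namespace CfsgLib.Qc

open scoped ComplexConjugate BigOperators

universe u

variable {P : Type u} [Group P] [Fintype P] {φ : P ≃* P} {μ : Ch P}

/-- characters with square one -/
def K4 (P : Type u) [Group P] : Subgroup (Ch P) where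
  carrier := {f | f * f = 1}
  mul_mem' := by
    intro a b ha hb
    show a * b * (a * b) = 1
    rw [mul_mul_mul_comm]
    rw [show a * a = 1 from ha, show b * b = 1 from hb, one_mul]
  one_mem' := one_mul 1
  inv_mem' := by
    intro a ha
    show a⁻¹ * a⁻¹ = 1
    rw [← mul_inv, show a * a = 1 from ha, inv_one]

theorem mem_K4 {f : Ch P} : f ∈ K4 P ↔ f * f = 1 := Iff.rfl

theorem card_K4 (hT : Tri φ μ) : Nat.card (K4 P) = 4 := by
  classical
  have h1 : (K4 P : Set (Ch P)) = (({1, μ, w φ μ, w φ (w φ μ)} : Finset (Ch P)) : Set (Ch P)) := by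
    ext f
    simp only [Finset.coe_insert, Finset.coe_singleton, Set.mem_insert_iff, Set.mem_singleton_iff]
    constructor
    · intro hf; exact hT.four' hf
    · rintro (rfl | rfl | rfl | rfl)
      · exact one_mul 1
      · exact hT.m2
      · exact hT.wm2
      · exact hT.wwm2
  have h2 : Nat.card (K4 P) = Nat.card ((({1, μ, w φ μ, w φ (w φ μ)} : Finset (Ch P)) : Set (Ch P))) := by
    rw [← h1]; rfl
  rw [h2, Nat.card_coe_set_eq, Set.ncard_coe_finset]
  have e1 : μ ≠ w φ μ := fun h => hT.m1 (hT.fixw h.symm)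
  have e2 : μ ≠ w φ (w φ μ) := fun h => hT.m1 (hT.fixww h.symm)
  have e3 : w φ μ ≠ w φ (w φ μ) := fun h => e1 (hT.w_inj h)
  rw [Finset.card_insert_of_notMem, Finset.card_insert_of_notMem, Finset.card_insert_of_notMem,
    Finset.card_singleton]
  · simpa using e3
  · simp [e1, e2]
  · simp [hT.m1.symm, hT.wm1.symm, hT.wwm1.symm]

theorem finCh (hab : ∀ a b : P, a * b = b * a) : Finite (Ch P) := finite_hom hab

section
variable {F : P → ℂ} {a : Ch P → ℤ}

theorem sum_periodic (hT : Tri φ μ) [Fintype (Ch P)] (b : Ch P → ℤ)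
    (hb : ∀ f, ∀ g ∈ K4 P, b (f * g) = b f) : (4 : ℤ) ∣ ∑ f, b f := by
  classical
  haveI : Fintype (K4 P) := Fintype.ofFinite _
  haveI : Fintype (Ch P ⧸ K4 P) := Fintype.ofFinite _
  rw [← Finset.sum_fiberwise Finset.univ (fun f : Ch P => (QuotientGroup.mk f : Ch P ⧸ K4 P)) b]
  apply Finset.dvd_sum
  intro q _
  induction q using QuotientGroup.induction_on with
  | H x =>
  have h1 : ∑ f ∈ Finset.univ.filter (fun f : Ch P => (QuotientGroup.mk f : Ch P ⧸ K4 P) =
      QuotientGroup.mk x), b f = ∑ k : K4 P, b (x * (k : Ch P)) := by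
    symm
    refine Finset.sum_bij (fun k _ => x * (k : Ch P)) ?_ ?_ ?_ ?_
    · intro k _
      rw [Finset.mem_filter]
      refine ⟨Finset.mem_univ _, ?_⟩
      rw [QuotientGroup.eq]
      rw [mul_inv, mul_assoc, mul_comm, mul_assoc, mul_inv_cancel, mul_one]
      exact (K4 P).inv_mem k.2
    · intro k _ k' _ hkk
      exact Subtype.ext (mul_left_cancel hkk)
    · intro f hf
      rw [Finset.mem_filter] at hf
      have := QuotientGroup.eq.1 hf.2.symm
      exact ⟨⟨x⁻¹ * f, this⟩, Finset.mem_univ _, by rw [mul_inv_cancel_left]⟩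
    · intro k _; rfl
  rw [h1, Finset.sum_congr rfl fun k _ => hb x _ k.2, Finset.sum_const, Finset.card_univ,
    ← Nat.card_eq_fintype_card, card_K4 hT, nsmul_eq_mul]
  exact Dvd.intro _ rfl

theorem SS_w (h : FD φ F a) (hT : Tri φ μ) (f : Ch P) :
    SS φ μ a (w φ f) = a f + a (f * w φ (w φ μ)) - a (f * μ) - a (f * w φ μ) := by
  unfold SS
  have h1 : a (w φ f * μ) = a (f * w φ (w φ μ)) := by
    rw [← h.a_w (f * w φ (w φ μ)), map_mul, hT.www]
  have h2 : a (w φ f * w φ μ) = a (f * μ) := by rw [← map_mul, h.a_w]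
  have h3 : a (w φ f * w φ (w φ μ)) = a (f * w φ μ) := by rw [← map_mul, h.a_w]
  rw [h.a_w, h1, h2, h3]

theorem SS_ww (h : FD φ F a) (hT : Tri φ μ) (f : Ch P) :
    SS φ μ a (w φ (w φ f)) = a f + a (f * w φ μ) - a (f * w φ (w φ μ)) - a (f * μ) := by
  rw [SS_w h hT, h.a_w]
  have h1 : a (w φ f * μ) = a (f * w φ (w φ μ)) := by
    rw [← h.a_w (f * w φ (w φ μ)), map_mul, hT.www]
  have h2 : a (w φ f * w φ μ) = a (f * μ) := by rw [← map_mul, h.a_w]
  have h3 : a (w φ f * w φ (w φ μ)) = a (f * w φ μ) := by rw [← map_mul, h.a_w]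
  rw [h1, h2, h3]

theorem notV_w (hT : Tri φ μ) {x : Ch P} (hx : ¬ x * x = 1) : ¬ w φ x * w φ x = 1 := by
  intro h'
  apply hx
  apply hT.w_inj
  rw [map_mul, h', map_one]

theorem S_one_eq (h : FD φ F a) : SS φ μ a 1 = a 1 - a μ := by
  unfold SS
  rw [one_mul, one_mul, one_mul]
  simp only [h.a_w]
  ring

theorem sum_a (hab : ∀ x y : P, x * y = y * x) [Fintype (Ch P)] (h : FD φ F a) :
    F 1 = ((∑ f, a f : ℤ) : ℂ) := by
  have h1 := inversion hab (P := P) F 1
  rw [h1]
  push_cast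
  refine Finset.sum_congr rfl fun f _ => ?_
  rw [← h.coef, ev_at_one, map_one, mul_one]

/-- weight two forces the value at one -/
theorem two_mod (hT : Tri φ μ) (h : FD φ F a) (hpos : ∀ v, ∃ r : ℝ, 0 < r ∧ F v = r)
    (h2 : SS φ μ a 1 = 2) (ha : a 1 = 3) {m : ℤ} (hm : F 1 = 3 * m) : (4 : ℤ) ∣ m - 2 := by
  classical
  haveI := finCh hT.ab
  haveI : Fintype (Ch P) := Fintype.ofFinite _
  have hv := fun f hf => vanish hT h hpos h2 (orderOf f) f rfl hf
  have haμ : a μ = 1 := by
    have := S_one_eq (μ := μ) h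
    omega
  set b : Ch P → ℤ := fun f => a f - if f = 1 then 2 else 0 with hb
  have hbV : ∀ f, f * f = 1 → b f = 1 := by
    intro f hf
    rcases hT.four' hf with rfl | rfl | rfl | rfl
    · simp [hb, ha]
    · simp only [hb, if_neg hT.m1, haμ]; norm_num
    · simp only [hb, if_neg hT.wm1, h.a_w, haμ]; norm_num
    · simp only [hb, if_neg hT.wwm1, h.a_w, haμ]; norm_num
  have hper : ∀ f, ∀ g ∈ K4 P, b (f * g) = b f := by
    intro f g hg
    by_cases hf : f * f = 1
    · rw [hbV f hf, hbV (f * g) (by rw [mul_mul_mul_comm, hf, mem_K4.1 hg, one_mul])]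
    · have hf1 : f ≠ 1 := fun h' => hf (by rw [h', one_mul])
      have hfg : f * g ≠ 1 := by
        intro h'
        apply hf
        have : f = g⁻¹ := eq_inv_of_mul_eq_one_left h'
        rw [this, ← mul_inv, mem_K4.1 hg, inv_one]
      simp only [hb, if_neg hf1, if_neg hfg, sub_zero]
      have e1 := hv f hf
      have e2 := hv _ (notV_w hT hf)
      have e3 := hv _ (notV_w hT (notV_w hT hf))
      rw [SS_w h hT] at e2
      rw [SS_ww h hT] at e3
      unfold SS at e1
      rcases hT.four' (mem_K4.1 hg) with rfl | rfl | rfl | rfl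
      · rw [mul_one]
      · omega
      · omega
      · omega
  have h4 := sum_periodic hT b hper
  have h5 : ∑ f, b f = (∑ f, a f) - 2 := by
    simp only [hb, Finset.sum_sub_distrib]
    congr 1
    simp
  have h6 : (∑ f, a f : ℤ) = 3 * m := by
    have := sum_a hT.ab h
    rw [hm] at this
    exact_mod_cast this.symm
  rw [h5, h6] at h4
  omega

theorem fd_one (hT : Tri φ μ) [DecidableEq (Ch P)] :
    FD φ (fun _ : P => (1 : ℂ)) (fun f => if f = 1 then 1 else 0) := by
  refine ⟨fun _ => rfl, fun f => ?_⟩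
  have hP : (Nat.card P : ℂ) ≠ 0 := by exact_mod_cast Nat.card_pos.ne'
  split_ifs with hf
  · subst hf
    simp only [mul_one]
    rw [sum_ev_one, inv_mul_cancel₀ hP]; norm_num
  · simp only [mul_one]
    rw [sum_ev hf, mul_zero]; norm_num

theorem S_V (hT : Tri φ μ) (a b : Ch P → ℤ) (h1 : SS φ μ a 1 = SS φ μ b 1) {f : Ch P}
    (hf : f * f = 1) : SS φ μ a f = SS φ μ b f := by
  have e1 : ∀ c : Ch P → ℤ, SS φ μ c μ = SS φ μ c 1 := by
    intro c; rw [← FD.S_mu hT c 1, one_mul]
  have e2 : ∀ c : Ch P → ℤ, SS φ μ c (w φ μ) = - SS φ μ c 1 := by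
    intro c; rw [← FD.S_wmu hT c 1, one_mul]
  have e3 : ∀ c : Ch P → ℤ, SS φ μ c (w φ (w φ μ)) = - SS φ μ c 1 := by
    intro c; rw [hT.wwm, FD.S_wmu hT c μ, e1]
  rcases hT.four' hf with rfl | rfl | rfl | rfl
  · exact h1
  · rw [e1, e1, h1]
  · rw [e2, e2, h1]
  · rw [e3, e3, h1]

/-- completeness -/
theorem complete (hT : Tri φ μ) (h : FD φ F a) {F' : P → ℂ} {a' : Ch P → ℤ} (h' : FD φ F' a')
    (hS : ∀ f, SS φ μ a f = SS φ μ a' f) (v : P) (hv : ka φ μ v ≠ 0) : F v = F' v := by
  classical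
  haveI := finCh hT.ab
  haveI : Fintype (Ch P) := Fintype.ofFinite _
  have h1 := inversion hT.ab (P := P) (fun v => (ka φ μ v : ℂ) * F v) v
  have h2 := inversion hT.ab (P := P) (fun v => (ka φ μ v : ℂ) * F' v) v
  have h3 : (ka φ μ v : ℂ) * F v = (ka φ μ v : ℂ) * F' v := by
    rw [h1, h2]
    refine Finset.sum_congr rfl fun f _ => ?_
    congr 1
    have e1 := h.S_eq hT f
    have e2 := h'.S_eq hT f
    rw [hS f] at e1
    have e3 : ∀ G : P → ℂ, ∑ v : P, ev f v * ((ka φ μ v : ℂ) * G v) =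
        ∑ v : P, (ka φ μ v : ℂ) * (ev f v * G v) := fun G =>
      Finset.sum_congr rfl fun v _ => by ring
    rw [e3, e3, ← e1, ← e2]
  exact mul_left_cancel₀ (by exact_mod_cast hv) h3

/-- weight one -/
theorem weight_one (hT : Tri φ μ) (h : FD φ F a) (hpos : ∀ v, ∃ r : ℝ, 0 < r ∧ F v = r)
    (h1 : SS φ μ a 1 = 1) (v : P) (hv : ka φ μ v ≠ 0) : F v = 1 := by
  classical
  have h0 := fd_one (P := P) hT
  refine complete hT h h0 (fun f => ?_) v hv
  by_cases hf : f * f = 1
  · apply S_V hT _ _ _ hf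
    rw [h1, S_one_eq h0]
    simp [hT.m1]
  · have h2 := S_lt hT h hpos hf
    rw [h1] at h2
    have h3 : SS φ μ a f = 0 := Int.abs_lt_one_iff.1 h2
    rw [h3]
    have h4 := h0.S_eq hT f
    have h5 : ∑ v : P, (ka φ μ v : ℂ) * (ev f v * 1) = 0 := by
      rw [← hT.sum_ka hf]
      exact Finset.sum_congr rfl fun v _ => by rw [mul_one]
    rw [h5, mul_zero] at h4
    exact_mod_cast h4.symm

/-- Bessel -/
theorem bessel (hT : Tri φ μ) (h : FD φ F a) (hu : ∀ v, ka φ μ v ≠ 0 → Complex.normSq (F v) = 1)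
    {ι : Type*} [Fintype ι] (g : ι → Ch P)
    (hg : ∀ i j, i ≠ j → ¬ (g i * (g j)⁻¹) * (g i * (g j)⁻¹) = 1) :
    ∑ i, SS φ μ a (g i) ^ 2 ≤ 1 := by
  classical
  have hP : (0 : ℝ) < Nat.card P := by exact_mod_cast Nat.card_pos
  have hP' : (Nat.card P : ℂ) ≠ 0 := by exact_mod_cast Nat.card_pos.ne'
  set c : ι → ℝ := fun i => (SS φ μ a (g i) : ℝ) with hc
  set Y : P → ℂ := fun v => conj (yy g c v) with hY
  have key : ((Nat.card P : ℝ)⁻¹ * ∑ v : P, ka φ μ v * Complex.normSq (F v - Y v) : ℝ) =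
      1 - ∑ i, c i ^ 2 := by
    have h1 : (((Nat.card P : ℝ)⁻¹ * ∑ v : P, ka φ μ v * Complex.normSq (F v - Y v) : ℝ) : ℂ) =
        ((1 - ∑ i, c i ^ 2 : ℝ) : ℂ) := by
      push_cast
      have h2 : ∀ v : P, (ka φ μ v : ℂ) * ((Complex.normSq (F v - Y v) : ℝ) : ℂ) =
          (ka φ μ v : ℂ) - (ka φ μ v : ℂ) * (F v * yy g c v) -
            (ka φ μ v : ℂ) * conj (F v * yy g c v) +
            (ka φ μ v : ℂ) * ((Complex.normSq (yy g c v) : ℝ) : ℂ) := by
        intro v
        by_cases hv : ka φ μ v = 0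
        · rw [hv]; simp
        · have h3 : F v * conj (F v) = 1 := by
            rw [mul_comm, ← Complex.normSq_eq_conj_mul_self, hu v hv, Complex.ofReal_one]
          rw [Complex.normSq_eq_conj_mul_self, Complex.normSq_eq_conj_mul_self, hY]
          simp only [map_sub, Complex.conj_conj, map_mul]
          linear_combination (ka φ μ v : ℂ) * h3
      rw [Finset.sum_congr rfl fun v _ => h2 v, Finset.sum_add_distrib, Finset.sum_sub_distrib,
        Finset.sum_sub_distrib, hT.sum_ka_one]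
      have h4 : ∑ v : P, (ka φ μ v : ℂ) * (F v * yy g c v) = (Nat.card P : ℂ) * ∑ i, (c i : ℂ) ^ 2 := by
        unfold yy
        simp only [Finset.mul_sum]
        rw [Finset.sum_comm]
        refine Finset.sum_congr rfl fun i _ => ?_
        have h5 := h.S_eq hT (g i)
        have h6 : (c i : ℂ) = (SS φ μ a (g i) : ℂ) := by simp [hc]
        calc ∑ v : P, (ka φ μ v : ℂ) * (F v * ((c i : ℂ) * ev (g i) v)) =
            (c i : ℂ) * ∑ v : P, (ka φ μ v : ℂ) * (ev (g i) v * F v) := by
              rw [Finset.mul_sum]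
              exact Finset.sum_congr rfl fun v _ => by ring
          _ = (c i : ℂ) * ((Nat.card P : ℂ) * (c i : ℂ)) := by
              rw [h6, h5]; field_simp
          _ = _ := by ring
      have h4' : ∑ v : P, (ka φ μ v : ℂ) * conj (F v * yy g c v) =
          (Nat.card P : ℂ) * ∑ i, (c i : ℂ) ^ 2 := by
        have h7 := congrArg conj h4
        rw [map_sum, map_mul, map_sum, Complex.conj_natCast] at h7
        simp only [map_mul, map_pow, Complex.conj_ofReal] at h7 ⊢
        exact h7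
      have h8 : ∑ v : P, (ka φ μ v : ℂ) * ((Complex.normSq (yy g c v) : ℝ) : ℂ) =
          (Nat.card P : ℂ) * ∑ i, (c i : ℂ) ^ 2 := by
        have h2 := sum_yy hT (fun _ => (1 : ℂ)) (fun f => if f * f = 1 then
          (Nat.card P : ℂ)⁻¹ * ∑ v : P, (ka φ μ v : ℂ) * (ev f v * 1) else 0) (fun f => by
            show (if f * f = 1 then _ else _) = _
            split_ifs with hf
            · rfl
            · have h3 := hT.sum_ka hf
              simp only [mul_one]
              rw [h3, mul_zero]) g c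
        have h3 : ∀ i, ∑ j, (c i : ℂ) * (c j : ℂ) * (if (g i * (g j)⁻¹) * (g i * (g j)⁻¹) = 1 then
            (Nat.card P : ℂ)⁻¹ * ∑ v : P, (ka φ μ v : ℂ) * (ev (g i * (g j)⁻¹) v * 1) else 0) =
            (c i : ℂ) ^ 2 := by
          intro i
          rw [Finset.sum_eq_single i]
          · rw [mul_inv_cancel, one_mul, if_pos rfl]
            have h5 : ∑ v : P, (ka φ μ v : ℂ) * (ev (1 : Ch P) v * 1) = Nat.card P := by
              rw [← hT.sum_ka_one]
              exact Finset.sum_congr rfl fun v _ => by rw [ev_one, mul_one, mul_one]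
            rw [h5, inv_mul_cancel₀ hP']; ring
          · intro j _ hj
            rw [if_neg (hg i j (Ne.symm hj)), mul_zero]
          · intro h'; exact absurd (Finset.mem_univ i) h'
        simp only [h3] at h2
        rw [h2, mul_inv_cancel_left₀ hP']
        exact Finset.sum_congr rfl fun v _ => by rw [mul_one]
      rw [h4, h4', h8]
      field_simp
      ring
    exact_mod_cast h1
  have h9 : 0 ≤ (Nat.card P : ℝ)⁻¹ * ∑ v : P, ka φ μ v * Complex.normSq (F v - Y v) :=
    mul_nonneg (inv_nonneg.2 hP.le) (Finset.sum_nonneg fun v _ =>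
      mul_nonneg (hT.ka_nonneg v) (Complex.normSq_nonneg _))
  rw [key] at h9
  have h10 : ∑ i, (SS φ μ a (g i) : ℝ) ^ 2 ≤ 1 := by simpa [hc] using h9
  exact_mod_cast h10

/-- pairs of weight one -/
theorem pair_ne (hT : Tri φ μ) (h : FD φ F a)
    (hu : ∀ v, ka φ μ v ≠ 0 → Complex.normSq (F v) = 1) : SS φ μ a 1 ≠ 0 := by
  classical
  intro h0
  have hP' : (Nat.card P : ℂ) ≠ 0 := by exact_mod_cast Nat.card_pos.ne'
  have hz : ∀ f, SS φ μ a f = 0 := by
    intro f
    by_cases hf : f * f = 1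
    · have := S_V hT a (fun _ => 0) (by rw [h0]; simp [SS]) hf
      rw [this]; simp [SS]
    · by_contra hne
      have h1 := bessel hT h hu (ι := Fin 1) (fun _ => f) (by
        intro i j hij; exact absurd (Subsingleton.elim i j) hij)
      rw [Finset.univ_unique, Finset.sum_singleton] at h1
      have h2 : SS φ μ a f = 1 ∨ SS φ μ a f = -1 := by
        have h3 : -1 ≤ SS φ μ a f ∧ SS φ μ a f ≤ 1 := by
          constructor <;> nlinarith
        omega
      have h3 := h.S_parity hT f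
      have h4 := h.S_parity hT (w φ f)
      have h5 : SS φ μ a (w φ f) ≠ 0 := by
        intro h6; rw [h6] at h3; omega
      have h6 : SS φ μ a (w φ (w φ f)) ≠ 0 := by
        intro h7; rw [h7] at h4
        omega
      have h7 := bessel hT h hu (ι := Fin 2) ![f, w φ f] (by
        intro i j hij
        have hv : ¬ (f * (w φ f)⁻¹) * (f * (w φ f)⁻¹) = 1 := by
          intro h'
          rw [← pow_two] at h'
          exact hf (by rw [← pow_two]; exact unit1 hT h')
        fin_cases i <;> fin_cases j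
        · exact absurd rfl hij
        · exact hv
        · exact not_V_symm hv
        · exact absurd rfl hij)
      rw [Fin.sum_univ_two] at h7
      simp only [Matrix.cons_val_zero, Matrix.cons_val_one] at h7
      have h8 : 0 < SS φ μ a f ^ 2 := by positivity
      have h9 : 0 < SS φ μ a (w φ f) ^ 2 := by positivity
      omega
  have hfd0 : FD φ (fun _ : P => (0 : ℂ)) (fun _ => 0) := ⟨fun _ => rfl, fun f => by simp⟩
  obtain ⟨v, hv⟩ : ∃ v, ka φ μ v ≠ 0 := by
    by_contra hn
    push Not at hn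
    have := hT.sum_ka_one
    simp only [hn, Complex.ofReal_zero, Finset.sum_const_zero] at this
    exact hP' this.symm
  have h1 := complete hT h hfd0 (fun f => by rw [hz f]; simp [SS]) v hv
  have h2 := hu v hv
  rw [h1] at h2
  simp at h2

/-- the weight is at most three -/
theorem weight_le (hT : Tri φ μ) (h : FD φ F a) (hpos : ∀ v, ∃ r : ℝ, 0 < r ∧ F v = r)
    (ha : a 1 = 3) : SS φ μ a 1 ≤ 3 := by
  have h1 := S_one_eq (μ := μ) h
  suffices hs : 0 ≤ a μ by omega
  have hP : (0 : ℝ) < Nat.card P := by exact_mod_cast Nat.card_pos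
  choose r hr hF using hpos
  have e0 : (a 1 : ℂ) + a μ + a (w φ μ) + a (w φ (w φ μ)) = (Nat.card P : ℂ)⁻¹ *
      ∑ v : P, ((1 : ℂ) + ev μ v + ev (w φ μ) v + ev (w φ (w φ μ)) v) * F v := by
    rw [h.coef, h.coef, h.coef, h.coef, ← mul_add, ← mul_add, ← mul_add, ← Finset.sum_add_distrib,
      ← Finset.sum_add_distrib, ← Finset.sum_add_distrib]
    congr 1
    refine Finset.sum_congr rfl fun v _ => ?_
    rw [ev_one]; ring
  have e1 : ∀ v : P, ∃ t : ℝ, 0 ≤ t ∧ (v = 1 → t = 4) ∧
      (1 : ℂ) + ev μ v + ev (w φ μ) v + ev (w φ (w φ μ)) v = t := by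
    intro v
    have h2 : ev (w φ (w φ μ)) v = ev μ v * ev (w φ μ) v := by rw [hT.wwm, ev_mul]
    rw [h2]
    have h5 : v = 1 → ev μ v = 1 ∧ ev (w φ μ) v = 1 := by
      rintro rfl; exact ⟨ev_at_one _, ev_at_one _⟩
    rcases Tri.ev_pm μ hT.m2 v with h3 | h3 <;> rcases Tri.ev_pm (w φ μ) hT.wm2 v with h4 | h4
    · exact ⟨4, by norm_num, fun _ => rfl, by rw [h3, h4]; norm_num⟩
    · refine ⟨0, le_rfl, fun h' => ?_, by rw [h3, h4]; norm_num⟩
      exfalso; have := (h5 h').2; rw [h4] at this; norm_num at this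
    · refine ⟨0, le_rfl, fun h' => ?_, by rw [h3, h4]; norm_num⟩
      exfalso; have := (h5 h').1; rw [h3] at this; norm_num at this
    · refine ⟨0, le_rfl, fun h' => ?_, by rw [h3, h4]; norm_num⟩
      exfalso; have := (h5 h').1; rw [h3] at this; norm_num at this
  choose t ht ht1 hte using e1
  have e2 : ((3 + 3 * a μ : ℤ) : ℝ) = (Nat.card P : ℝ)⁻¹ * ∑ v : P, t v * r v := by
    have : (((3 + 3 * a μ : ℤ) : ℝ) : ℂ) = (((Nat.card P : ℝ)⁻¹ * ∑ v : P, t v * r v : ℝ) : ℂ) := by
      push_cast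
      rw [ha] at e0
      simp only [hte, hF, h.a_w] at e0
      rw [← e0]; push_cast; ring
    exact_mod_cast this
  have e3 : 0 < ∑ v : P, t v * r v := by
    refine Finset.sum_pos' (fun v _ => mul_nonneg (ht v) (hr v).le) ⟨1, Finset.mem_univ _, ?_⟩
    rw [ht1 1 rfl]
    have := hr 1
    linarith
  have e4 : (0 : ℝ) < ((3 + 3 * a μ : ℤ) : ℝ) := by
    rw [e2]; exact mul_pos (inv_pos.2 hP) e3
  have e5 : 0 < 3 + 3 * a μ := by exact_mod_cast e4
  omega

end

end CfsgLib.Qc
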