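import Mathlib
import Cfsg.Agent.EqBase
import Cfsg.Agent.LibQc4
import Cfsg.Agent.LibStar27
import Cfsg.Agent.LibStar23
import Cfsg.Agent.LibBlkRk

/-!
# Homocyclic defect groups, V: blocks (helper17)
-/

set_option autoImplicit false
set_option linter.unusedSectionVars false
set_option linter.style.haveILetI false
set_option linter.unusedSimpArgs false
set_option linter.unusedVariables false

namespace CfsgLib.Qc

open Cfsg CfsgLib.GalChar CfsgLib.GalField CfsgLib.BlockReg CfsgLib.BlockReg2 CfsgLib.LocR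
  CfsgLib.BrP CfsgLib.Car CfsgLib.BlockQP CfsgLib.BlockDefect
  CfsgLib.Points CfsgLib.PLocalInd CfsgLib.CharBasic CfsgLib.BlockCore CfsgLib.BlockSec
  CfsgLib.BlockR CfsgLib.BlockIdem CfsgLib.BlockOrth CfsgLib.CharIndA CfsgLib.CharNorm
open CfsgLib.Star (GG WW dv star HF FSt Mv pp ev_spec ev_blk ev_mv_conj inner_star_GG star_HF_gen
  star_HF_one star_HF_out FSt_const GG_one GG_pos dv_major wt wt_abel wt_one trace_formula
  card_formula rank_local abelian_move WW_conj AA_card_conj AA bset bset_spec dv_expand dv_eq mem_C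
  sum_pp_C comm_of_C CH_zp mem_cen pp_iff HF_of cS_zpowers)
open scoped ComplexConjugate Pointwise

universe u

section

variable {M : Ideal AlgInt} [hPr : M.IsPrime] {G : Type u} [Group G] [Fintype G]
variable {p : ℕ} [hp : Fact p.Prime] [hch : CharP (kM M) p]

theorem fst_inv {B : MonoidAlgebra (kM M) G} (hB : IsBlk ⊤ B) {P : Subgroup G}
    {c : MonoidAlgebra (kM M) G} (hmx : IsMx p ⊤ B P c)
    (hab : ∀ x ∈ P, ∀ y ∈ P, x * y = y * x) {η : P → ℂ}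
    (hη : ∀ x ∈ TS ⊤ P c, ∀ (v : G) (hv : v ∈ P) (hv' : x * v * x⁻¹ ∈ P),
      η ⟨x * v * x⁻¹, hv'⟩ = η ⟨v, hv⟩) : FSt p P c (ext0 P η) := by
  intro u e x y hx hy
  have hxP := hx.mem
  have hyP := hy.mem
  have h1 : LEp p ⊤ (cS (y * x⁻¹) (cS x (Subgroup.zpowers u)), cj (y * x⁻¹) (cj x e)) (P, c) := by
    rw [cS_cS, cj_cj, inv_mul_cancel_right]
    exact hy
  obtain ⟨t, ht, d, hd, hz⟩ := abelian_move hB hmx hab hx (Subgroup.mem_top _) h1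
  have hd2 : d * (x * u * x⁻¹) = (x * u * x⁻¹) * d := by
    rw [cS_zpowers] at hd
    exact comm_of_C hd
  have h3 : y * u * y⁻¹ = t * (x * u * x⁻¹) * t⁻¹ := by
    have e1 : y = t * d * x := by rw [← hz, inv_mul_cancel_right]
    rw [e1]
    calc t * d * x * u * (t * d * x)⁻¹ = t * (d * (x * u * x⁻¹)) * d⁻¹ * t⁻¹ := by group
      _ = t * ((x * u * x⁻¹) * d) * d⁻¹ * t⁻¹ := by rw [hd2]
      _ = _ := by group
  rw [ext0_mem _ hxP, ext0_mem _ hyP]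
  have h4 := hη t ht (x * u * x⁻¹) hxP (by rw [← h3]; exact hyP)
  rw [← h4]
  congr 1
  exact Subtype.ext h3.symm

theorem GG_TS (hM : IsPModular p M) {P : Subgroup G} {c : MonoidAlgebra (kM M) G}
    (hPc : BP p ⊤ P c) {χ ψ : G → ℂ} (hχ : IsClassFunction G χ) (hψ : IsClassFunction G ψ)
    {x : G} (hx : x ∈ TS ⊤ P c) (v : G) (hv : v ∈ P) (hv' : x * v * x⁻¹ ∈ P) :
    GG p P c χ ψ ⟨x * v * x⁻¹, hv'⟩ = GG p P c χ ψ ⟨v, hv⟩ := by
  have h1 : cj x (CfsgLib.Star.ev p P c v) = CfsgLib.Star.ev p P c (x * v * x⁻¹) := by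
    apply ev_mv_conj hPc
    have := (ev_spec hPc hv).cj' (Subgroup.mem_top x)
    unfold Mv
    dsimp only at this
    rwa [mem_normalizer_iff_cS.1 hx.2.1, hx.2.2] at this
  unfold GG
  show (Nat.card P : ℂ) * WW p M (x * v * x⁻¹) (CfsgLib.Star.ev p P c (x * v * x⁻¹)) χ ψ /
    ((AA p P c (x * v * x⁻¹) (CfsgLib.Star.ev p P c (x * v * x⁻¹))).card : ℂ) = _
  rw [← h1, WW_conj hM hχ hψ _ (ev_blk hPc hv), AA_card_conj]

/-- blocks of rank one: contributions have rank one -/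
theorem WW_rank_one (hM : IsPModular p M) {u : G} {e : MonoidAlgebra (kM M) G}
    (he : IsBlk (CH ⊤ (Subgroup.zpowers u)) e)
    (hr : blockRank p (bset M (CH ⊤ (Subgroup.zpowers u)) e) = 1) {χ ψ : G → ℂ}
    (hχ : IsClassFunction G χ) (hψ : IsClassFunction G ψ) :
    WW p M u e χ χ * WW p M u e ψ ψ = WW p M u e χ ψ * WW p M u e ψ χ := by
  classical
  haveI := Fintype.ofFinite (CH ⊤ (Subgroup.zpowers u))
  set C := CH ⊤ (Subgroup.zpowers u) with hC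
  obtain ⟨θ₀, hθ₀⟩ := block_nonempty hPr (bset_spec (M := M) he).1
  have h1 : ∀ θ : IrrCharacter C, ∃ r : ℂ, θ ∈ bset M C e → ∀ g : C, ¬ p ∣ orderOf g →
      (θ : C → ℂ) g = r * (θ₀ : C → ℂ) g := by
    intro θ
    by_cases hθ : θ ∈ bset M C e
    · obtain ⟨r, hr'⟩ := CfsgLib.BlkRk.of_rank_one hr hθ₀ hθ
      exact ⟨r, fun _ => hr'⟩
    · exact ⟨0, fun h => absurd h hθ⟩
  choose r hr' using h1
  have key : ∀ χ : G → ℂ, IsClassFunction G χ → ∃ k : ℂ, ∀ s : C, ¬ p ∣ orderOf s →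
      dv M u e χ (s : G) = k * (θ₀ : C → ℂ) s := by
    intro χ hχ
    refine ⟨∑ θ : IrrCharacter C, ind (bset M C e) θ *
      (classInner (fun c : C => χ (u * (c : G))) (θ : C → ℂ) * r θ), fun s hs => ?_⟩
    rw [dv_expand e hχ s, Finset.sum_mul]
    refine Finset.sum_congr rfl fun θ _ => ?_
    by_cases hθ : θ ∈ bset M C e
    · rw [hr' θ hθ s hs]; ring
    · rw [ind_not hθ]; ring
  by_cases hu : ∃ k : ℕ, orderOf u = p ^ k
  · have hW : ∀ χ ψ : G → ℂ, WW p M u e χ ψ = ∑ c ∈ Finset.univ.filter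
        (fun c : C => ¬ p ∣ orderOf c), dv M u e χ (c : G) * conj (dv M u e ψ (c : G)) := by
      intro χ ψ
      unfold WW
      exact sum_pp_C hu (fun s => dv M u e χ s * conj (dv M u e ψ s))
    obtain ⟨k, hk⟩ := key χ hχ
    obtain ⟨l, hl⟩ := key ψ hψ
    have h2 : ∀ (χ ψ : G → ℂ) (k l : ℂ), (∀ s : C, ¬ p ∣ orderOf s →
        dv M u e χ (s : G) = k * (θ₀ : C → ℂ) s) → (∀ s : C, ¬ p ∣ orderOf s →
        dv M u e ψ (s : G) = l * (θ₀ : C → ℂ) s) → WW p M u e χ ψ = k * conj l *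
          ∑ c ∈ Finset.univ.filter (fun c : C => ¬ p ∣ orderOf c),
            (θ₀ : C → ℂ) c * conj ((θ₀ : C → ℂ) c) := by
      intro χ ψ k l hk hl
      rw [hW, Finset.mul_sum]
      refine Finset.sum_congr rfl fun s hs => ?_
      rw [Finset.mem_filter] at hs
      rw [hk s hs.2, hl s hs.2, map_mul]; ring
    rw [h2 χ χ k k hk hk, h2 ψ ψ l l hl hl, h2 χ ψ k l hk hl, h2 ψ χ l k hl hk]
    ring
  · simp only [CfsgLib.Star.WW_eq_zero_of_not hu, zero_mul]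

end

/-- the context -/
structure Cx (M : Ideal AlgInt) [hPr : M.IsPrime] {G : Type u} [Group G] [Fintype G]
    [CharP (kM M) 2] (B : Set (IrrCharacter G)) (P : Subgroup G) [Fintype P]
    (c : MonoidAlgebra (kM M) G)
    (φ : P ≃* P) (μ : Ch P) : Prop where
  hM : IsPModular 2 M
  hB : IsPBlock M B
  hmx : IsMx 2 ⊤ (JB M B) P c
  hab : ∀ x ∈ P, ∀ y ∈ P, x * y = y * x
  tri : Tri φ μ
  tw : ∀ x ∈ TS ⊤ P c, ∃ n : ℕ, ∀ v : P, x * (v : G) * x⁻¹ = (((φ : MulAut P) ^ n) v : P)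
  ph : ∃ t ∈ TS ⊤ P c, ∀ v : P, ((φ v : P) : G) = t * v * t⁻¹
  free : ∀ v ∈ P, v ≠ 1 → ∀ x ∈ TS ⊤ P c, x ∈ CH ⊤ (Subgroup.zpowers v) →
    x ∈ Subgroup.centralizer (P : Set G)
  idx : Nat.card (TS ⊤ P c) = 3 * Nat.card (Subgroup.centralizer (P : Set G))

namespace Cx
variable {M : Ideal AlgInt} [hPr : M.IsPrime] {G : Type u} [Group G] [Fintype G]
  [hch : CharP (kM M) 2] {B : Set (IrrCharacter G)} {P : Subgroup G} [Fintype P]
  {c : MonoidAlgebra (kM M) G} {φ : P ≃* P} {μ : Ch P}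

theorem fst (h : Cx M B P c φ μ) {η : P → ℂ} (hη : ∀ v, η (φ v) = η v) :
    FSt 2 P c (ext0 P η) := by
  refine fst_inv (g_blk h.hB) h.hmx h.hab (fun x hx v hv hv' => ?_)
  obtain ⟨n, hn⟩ := h.tw x hx
  have h1 : (⟨x * v * x⁻¹, hv'⟩ : P) = ((φ : MulAut P) ^ n) ⟨v, hv⟩ := Subtype.ext (hn ⟨v, hv⟩)
  rw [h1]
  clear hn h1 hv'
  induction n with
  | zero => rfl
  | succ n ih =>
    rw [pow_succ', MulAut.mul_apply]
    rw [hη, ih]

theorem GG_phi (h : Cx M B P c φ μ) (χ ψ : IrrCharacter G) (v : P) :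
    GG 2 P c (χ : G → ℂ) (ψ : G → ℂ) (φ v) = GG 2 P c (χ : G → ℂ) (ψ : G → ℂ) v := by
  obtain ⟨t, ht, hφ⟩ := h.ph
  have h1 := GG_TS h.hM h.hmx.1.1 (irr_classFun χ.2) (irr_classFun ψ.2) ht (v : G) v.2
    (by rw [← hφ]; exact (φ v).2)
  rw [← h1]
  congr 1
  exact Subtype.ext (hφ v)

/-- `ev` of the dual group as a generalized character -/
theorem gen_ev (f : Ch P) : IsGeneralizedCharacter P (fun v => Qc.ev f v) :=
  gen_of_char (isCharacter_hom f.h)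

theorem inner_GG (h : Cx M B P c φ μ) {η : P → ℂ} (hη : ∀ v, η (φ v) = η v)
    {χ ψ : IrrCharacter G} (hχ : χ ∈ B) (hψ : ψ ∈ B) :
    classInner (star 2 M (HF 2 P c (ext0 P η)) (χ : G → ℂ)) (ψ : G → ℂ) =
      (Nat.card P : ℂ)⁻¹ * ∑ v : P, η v * GG 2 P c (χ : G → ℂ) (ψ : G → ℂ) v := by
  have h1 := inner_star_GG h.hM h.hB h.hmx (h.fst hη) (FSt_const P c 1) hχ (irr_classFun ψ.2)
  rw [star_HF_one h.hM h.hB h.hmx hψ] at h1
  rw [h1]
  congr 1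
  refine Finset.sum_congr rfl fun v _ => ?_
  rw [map_one, mul_one, ext0_mem _ v.2]

theorem exists_int (h : Cx M B P c φ μ) {χ ψ : IrrCharacter G} (hχ : χ ∈ B) (hψ : ψ ∈ B)
    (f : Ch P) : ∃ n : ℤ, (n : ℂ) = (Nat.card P : ℂ)⁻¹ *
      ∑ v : P, Qc.ev f v * (3 * GG 2 P c (χ : G → ℂ) (ψ : G → ℂ) v) := by
  set η : P → ℂ := fun v => Qc.ev f v + Qc.ev (w φ f) v + Qc.ev (w φ (w φ f)) v with hη
  have h1 : ∀ v, η (φ v) = η v := by
    intro v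
    simp only [hη, ev_w, h.tri.phi3]
    ring
  have h2 : IsGeneralizedCharacter P η := gen_add (gen_add (gen_ev f) (gen_ev _)) (gen_ev _)
  have h3 := star_HF_gen h.hM (g_blk h.hB) h.hmx h2 (h.fst h1) (irr_isCharacter χ.2)
  obtain ⟨n, hn⟩ := gen_inner_int h3 (gen_of_irr ψ.2)
  refine ⟨n, ?_⟩
  rw [← hn, h.inner_GG h1 hχ hψ]
  congr 1
  have h4 : ∀ g : Ch P, ∑ v : P, Qc.ev (w φ g) v * GG 2 P c (χ : G → ℂ) (ψ : G → ℂ) v =
      ∑ v : P, Qc.ev g v * GG 2 P c (χ : G → ℂ) (ψ : G → ℂ) v := by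
    intro g
    rw [← Equiv.sum_comp φ.toEquiv (fun v => Qc.ev g v * GG 2 P c (χ : G → ℂ) (ψ : G → ℂ) v)]
    refine Finset.sum_congr rfl fun v _ => ?_
    show Qc.ev (w φ g) v * _ = Qc.ev g (φ v) * GG 2 P c (χ : G → ℂ) (ψ : G → ℂ) (φ v)
    rw [h.GG_phi, ev_w]
  simp only [hη, add_mul, Finset.sum_add_distrib]
  rw [h4, h4, h4]
  have h5 : ∀ v : P, Qc.ev f v * (3 * GG 2 P c (χ : G → ℂ) (ψ : G → ℂ) v) =
      3 * (Qc.ev f v * GG 2 P c (χ : G → ℂ) (ψ : G → ℂ) v) := fun v => by ring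
  rw [Finset.sum_congr rfl fun v _ => h5 v, ← Finset.mul_sum]
  ring

theorem exists_fd (h : Cx M B P c φ μ) {χ ψ : IrrCharacter G} (hχ : χ ∈ B) (hψ : ψ ∈ B) :
    ∃ a : Ch P → ℤ, FD φ (fun v => 3 * GG 2 P c (χ : G → ℂ) (ψ : G → ℂ) v) a := by
  choose a ha using h.exists_int hχ hψ
  exact ⟨a, fun v => by rw [h.GG_phi], ha⟩

theorem pos (h : Cx M B P c φ μ) {χ : IrrCharacter G} (hχ : χ ∈ B) (v : P) :
    ∃ r : ℝ, 0 < r ∧ 3 * GG 2 P c (χ : G → ℂ) (χ : G → ℂ) v = r := by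
  obtain ⟨r, hr, h1⟩ := GG_pos h.hmx.1.1 (dv_major h.hM h.hB h.hmx hχ v.2
    (fun w hw => h.hab w hw v v.2))
  exact ⟨3 * r, by positivity, by rw [h1]; push_cast; ring⟩

theorem a_one (h : Cx M B P c φ μ) {χ ψ : IrrCharacter G} (hχ : χ ∈ B) (hψ : ψ ∈ B)
    {a : Ch P → ℤ} (ha : FD φ (fun v => 3 * GG 2 P c (χ : G → ℂ) (ψ : G → ℂ) v) a) :
    a 1 = if χ = ψ then 3 else 0 := by
  classical
  have h1 := ha.coef 1
  have h2 := h.inner_GG (η := fun _ => 1) (fun _ => rfl) hχ hψ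
  have h3 : HF 2 P c (ext0 P (fun _ => (1 : ℂ))) = HF 2 P c (fun _ => (1 : ℂ)) := by
    funext u e
    by_cases hx : ∃ x, Mv 2 P c u e x
    · obtain ⟨x, hx⟩ := hx
      rw [HF_of (h.fst (η := fun _ => 1) (fun _ => rfl)) hx, HF_of (FSt_const P c 1) hx,
        ext0_mem _ hx.mem]
    · rw [CfsgLib.Star.HF_not hx, CfsgLib.Star.HF_not hx]
  rw [h3, star_HF_one h.hM h.hB h.hmx hχ] at h2
  have h4 : (a 1 : ℂ) = 3 * classInner (χ : G → ℂ) (ψ : G → ℂ) := by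
    have h5 : ∑ v : P, Qc.ev 1 v * (3 * GG 2 P c (χ : G → ℂ) (ψ : G → ℂ) v) =
        3 * ∑ v : P, (1 : ℂ) * GG 2 P c (χ : G → ℂ) (ψ : G → ℂ) v := by
      rw [Finset.mul_sum]
      refine Finset.sum_congr rfl fun v _ => ?_
      rw [ev_one]; ring
    rw [h1, h2, h5]; ring
  split_ifs with hχψ
  · subst hχψ
    rw [(irr_iff_norm_one.mp χ.2).2] at h4
    have : (a 1 : ℂ) = (3 : ℤ) := by rw [h4]; norm_num
    exact_mod_cast this
  · rw [irr_inner_ne χ.2 ψ.2 (fun h' => hχψ (Subtype.ext h'))] at h4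
    have : (a 1 : ℂ) = (0 : ℤ) := by rw [h4]; norm_num
    exact_mod_cast this

/-- the index-four projection weight -/
noncomputable def KK (φ : P ≃* P) (μ : Ch P) (v : P) : ℂ :=
  3 - Qc.ev μ v - Qc.ev (w φ μ) v - Qc.ev (w φ (w φ μ)) v

theorem KK_phi (hT : Tri φ μ) (v : P) : KK φ μ (φ v) = KK φ μ v := by
  unfold KK
  rw [← ev_w, ← ev_w, ← ev_w, hT.www]
  ring

theorem KK_real (hT : Tri φ μ) (v : P) : conj (KK φ μ v) = KK φ μ v ∧
    KK φ μ v * KK φ μ v = 4 * KK φ μ v := by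
  have h2 : Qc.ev (w φ (w φ μ)) v = Qc.ev μ v * Qc.ev (w φ μ) v := by rw [hT.wwm, ev_mul]
  unfold KK
  rw [h2]
  rcases Tri.ev_pm μ hT.m2 v with h3 | h3 <;> rcases Tri.ev_pm (w φ μ) hT.wm2 v with h4 | h4 <;>
    rw [h3, h4] <;> constructor <;> norm_num <;> simp [Complex.conj_ofNat]

theorem sum_KK (h : Cx M B P c φ μ) {χ ψ : IrrCharacter G}
    {a : Ch P → ℤ} (ha : FD φ (fun v => 3 * GG 2 P c (χ : G → ℂ) (ψ : G → ℂ) v) a) :
    (Nat.card P : ℂ)⁻¹ * ∑ v : P, KK φ μ v * GG 2 P c (χ : G → ℂ) (ψ : G → ℂ) v =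
      (SS φ μ a 1 : ℂ) := by
  rw [S_one_eq ha]
  push_cast
  have e1 := ha.coef μ
  have e2 := ha.coef (w φ μ)
  have e3 := ha.coef (w φ (w φ μ))
  rw [ha.a_w] at e2
  rw [ha.a_w, ha.a_w] at e3
  have e0 := ha.coef 1
  have h1 : ∑ v : P, KK φ μ v * GG 2 P c (χ : G → ℂ) (ψ : G → ℂ) v =
      (1 / 3 : ℂ) * (3 * ∑ v : P, Qc.ev 1 v * (3 * GG 2 P c (χ : G → ℂ) (ψ : G → ℂ) v) -
        ∑ v : P, Qc.ev μ v * (3 * GG 2 P c (χ : G → ℂ) (ψ : G → ℂ) v) -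
        ∑ v : P, Qc.ev (w φ μ) v * (3 * GG 2 P c (χ : G → ℂ) (ψ : G → ℂ) v) -
        ∑ v : P, Qc.ev (w φ (w φ μ)) v * (3 * GG 2 P c (χ : G → ℂ) (ψ : G → ℂ) v)) := by
    rw [Finset.mul_sum, ← Finset.sum_sub_distrib, ← Finset.sum_sub_distrib,
      ← Finset.sum_sub_distrib, Finset.mul_sum]
    refine Finset.sum_congr rfl fun v _ => ?_
    rw [ev_one]; unfold KK; ring
  rw [h1]
  linear_combination (-1 : ℂ) * e0 + (1 / 3 : ℂ) * e1 + (1 / 3 : ℂ) * e2 + (1 / 3 : ℂ) * e3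

end Cx

end CfsgLib.Qc
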