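import Mathlib
import Cfsg.Agent.LibQc5
import Cfsg.Agent.LibBlockSq

/-!
# Homocyclic defect groups, VI: counting (helper17)
-/

set_option autoImplicit false
set_option linter.unusedSectionVars false
set_option linter.style.haveILetI false
set_option linter.unusedSimpArgs false
set_option linter.unusedVariables false

namespace CfsgLib.Qc

open Cfsg CfsgLib.GalChar CfsgLib.GalField CfsgLib.BlockReg CfsgLib.BlockReg2 CfsgLib.LocR
  CfsgLib.BrP CfsgLib.Car CfsgLib.BlockQP CfsgLib.BlockDefect CfsgLib.BlockM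
  CfsgLib.Points CfsgLib.PLocalInd CfsgLib.CharBasic CfsgLib.BlockCore CfsgLib.BlockSec
  CfsgLib.BlockR CfsgLib.BlockIdem CfsgLib.BlockOrth CfsgLib.CharIndA CfsgLib.CharNorm
open CfsgLib.CharInt (irr_charDegree_pos)
open CfsgLib.Star (GG WW dv star HF FSt Mv pp ev_spec ev_blk ev_mv_conj inner_star_GG star_HF_gen
  star_HF_one star_HF_out FSt_const GG_one GG_pos dv_major wt wt_abel wt_one trace_formula
  card_formula rank_local abelian_move WW_conj AA_card_conj AA bset bset_spec dv_expand dv_eq mem_C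
  sum_pp_C comm_of_C CH_zp mem_cen pp_iff HF_of cS_zpowers)
open scoped ComplexConjugate Pointwise

universe u

section
variable {M : Ideal AlgInt} [hPr : M.IsPrime] {G : Type u} [Group G] [Fintype G]
variable {p : ℕ} [hp : Fact p.Prime]

theorem mm_dvd_succ (hM : IsPModular p M) {B : Set (IrrCharacter G)} (hB : IsPBlock M B)
    {χ : IrrCharacter G} (hχ : χ ∈ B) (h1 : blockHeight p B (χ : G → ℂ) ≠ 0) :
    ((p ^ 2 : ℕ) : ℤ) ∣ mm p B χ χ := by
  have h2 : MemLocalIdeal M ((cc p χ χ : ℂ) / (charDegree (χ : G → ℂ) : ℂ)) := by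
    by_contra h3
    exact h1 ((cc_unit_iff hM hB hχ hχ).1 h3)
  have hda := defect_le p B
  have hdeg := degree_eq hM hB hχ
  have h3 : p ^ ((Nat.card G).factorization p - blockDefect p B + 1) ∣ charDegree (χ : G → ℂ) := by
    rw [Nat.Prime.pow_dvd_iff_le_factorization hp.out (irr_charDegree_pos χ.2).ne']
    omega
  have h4 := dvd_of_ideal_div hM h3 (irr_charDegree_pos χ.2).ne' h2
  rw [cc_eq hM hB hχ χ] at h4
  have h5 : ((p ^ ((Nat.card G).factorization p - blockDefect p B) : ℕ) : ℤ) * ((p ^ 2 : ℕ) : ℤ) ∣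
      ((p ^ ((Nat.card G).factorization p - blockDefect p B) : ℕ) : ℤ) * mm p B χ χ := by
    rw [← Nat.cast_mul, ← pow_add]
    convert h4 using 2
  exact Int.dvd_of_mul_dvd_mul_left (by exact_mod_cast (pow_pos hp.out.pos _).ne') h5

end

/-- parity of the value at one -/
theorem parity_one {P : Type u} [Group P] [Fintype P] {φ : P ≃* P} {μ : Ch P} {F : P → ℂ}
    {a : Ch P → ℤ} (hT : Tri φ μ) [Fintype (Ch P)] (h : FD φ F a) (hreal : ∀ v, conj (F v) = F v) :
    (2 : ℤ) ∣ (∑ f, a f) - SS φ μ a 1 := by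
  classical
  have h1 : ((∑ f ∈ Finset.univ.filter (fun f : Ch P => ¬ f * f = 1), a f : ℤ) : ZMod 2) = 0 := by
    push_cast
    refine Finset.sum_involution (fun f _ => f⁻¹) ?_ ?_ ?_ ?_
    · intro f _
      rw [a_inv h hreal]
      exact CharTwo.add_self_eq_zero _
    · intro f hf _ h'
      rw [Finset.mem_filter] at hf
      apply hf.2
      nth_rewrite 1 [← h']
      exact inv_mul_cancel f
    · intro f hf
      rw [Finset.mem_filter] at hf ⊢
      exact ⟨Finset.mem_univ _, not_V_inv hf.2⟩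
    · intro f _; exact inv_inv f
  have h2 : ∑ f ∈ Finset.univ.filter (fun f : Ch P => f * f = 1), a f = a 1 + 3 * a μ := by
    have h3 : Finset.univ.filter (fun f : Ch P => f * f = 1) = {1, μ, w φ μ, w φ (w φ μ)} := by
      ext f
      simp only [Finset.mem_filter, Finset.mem_univ, true_and, Finset.mem_insert,
        Finset.mem_singleton]
      constructor
      · exact hT.four'
      · rintro (rfl | rfl | rfl | rfl)
        · exact one_mul 1
        · exact hT.m2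
        · exact hT.wm2
        · exact hT.wwm2
    have e1 : μ ≠ w φ μ := fun h => hT.m1 (hT.fixw h.symm)
    have e2 : μ ≠ w φ (w φ μ) := fun h => hT.m1 (hT.fixww h.symm)
    have e3 : w φ μ ≠ w φ (w φ μ) := fun h => e1 (hT.w_inj h)
    rw [h3, Finset.sum_insert, Finset.sum_insert, Finset.sum_insert, Finset.sum_singleton]
    · simp only [h.a_w]; ring
    · simpa using e3
    · simp [e1, e2]
    · simp [hT.m1.symm, hT.wm1.symm, hT.wwm1.symm]
  have h4 : (2 : ℤ) ∣ ∑ f ∈ Finset.univ.filter (fun f : Ch P => ¬ f * f = 1), a f := by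
    exact_mod_cast (ZMod.intCast_zmod_eq_zero_iff_dvd _ 2).1 h1
  have h5 := Finset.sum_filter_add_sum_filter_not Finset.univ (fun f : Ch P => f * f = 1) a
  rw [← h5, h2, S_one_eq h]
  obtain ⟨k, hk⟩ := h4
  rw [hk]
  exact ⟨2 * a μ + k, by ring⟩

namespace Cx
variable {M : Ideal AlgInt} [hPr : M.IsPrime] {G : Type u} [Group G] [Fintype G]
  [hch : CharP (kM M) 2] {B : Set (IrrCharacter G)} {P : Subgroup G} [Fintype P]
  {c : MonoidAlgebra (kM M) G} {φ : P ≃* P} {μ : Ch P}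

open Classical in
/-- the projection matrix -/
noncomputable def TT (h : Cx M B P c φ μ) (χ ψ : IrrCharacter G) : ℤ :=
  if hx : χ ∈ B ∧ ψ ∈ B then SS φ μ (h.exists_fd hx.1 hx.2).choose 1 else 0

theorem TT_spec (h : Cx M B P c φ μ) {χ ψ : IrrCharacter G} (hχ : χ ∈ B) (hψ : ψ ∈ B) :
    ∃ a : Ch P → ℤ, FD φ (fun v => 3 * GG 2 P c (χ : G → ℂ) (ψ : G → ℂ) v) a ∧
      h.TT χ ψ = SS φ μ a 1 := by
  refine ⟨_, (h.exists_fd hχ hψ).choose_spec, ?_⟩
  unfold TT
  rw [dif_pos ⟨hχ, hψ⟩]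

theorem TT_eq (h : Cx M B P c φ μ) {χ ψ : IrrCharacter G} (hχ : χ ∈ B) (hψ : ψ ∈ B) :
    (Nat.card P : ℂ)⁻¹ * ∑ v : P, KK φ μ v * GG 2 P c (χ : G → ℂ) (ψ : G → ℂ) v = (h.TT χ ψ : ℂ) := by
  obtain ⟨a, ha, h1⟩ := h.TT_spec hχ hψ
  rw [h1]
  exact h.sum_KK ha

theorem TT_inner (h : Cx M B P c φ μ) {χ : IrrCharacter G} (hχ : χ ∈ B) (ψ : IrrCharacter G) :
    classInner (star 2 M (HF 2 P c (ext0 P (KK φ μ))) (χ : G → ℂ)) (ψ : G → ℂ) = (h.TT χ ψ : ℂ) := by
  by_cases hψ : ψ ∈ B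
  · rw [h.inner_GG (KK_phi h.tri) hχ hψ, h.TT_eq hχ hψ]
  · rw [star_HF_out h.hM h.hB h.hmx hχ hψ]
    unfold TT
    rw [dif_neg (fun h' => hψ h'.2)]; norm_num

theorem gen_KK (hT : Tri φ μ) : IsGeneralizedCharacter P (KK φ μ) := by
  have h3 : IsGeneralizedCharacter P (fun _ : P => (3 : ℂ)) := by
    have h1 := gen_add (gen_add (gen_ev (1 : Ch P)) (gen_ev (1 : Ch P))) (gen_ev (1 : Ch P))
    have : (fun _ : P => (3 : ℂ)) = ((fun v : P => Qc.ev (1 : Ch P) v) + fun v => Qc.ev (1 : Ch P) v) +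
        fun v => Qc.ev (1 : Ch P) v := by
      funext v
      simp only [Pi.add_apply, ev_one]; norm_num
    rw [this]; exact h1
  have h4 := gen_sub (gen_sub (gen_sub h3 (gen_ev μ)) (gen_ev (w φ μ))) (gen_ev (w φ (w φ μ)))
  exact h4

theorem parse (h : Cx M B P c φ μ) {χ : IrrCharacter G} (hχ : χ ∈ B) :
    ∑ ψ : IrrCharacter G, h.TT χ ψ ^ 2 = 4 * h.TT χ χ := by
  have hfst := h.fst (KK_phi h.tri)
  have hgen := star_HF_gen h.hM (g_blk h.hB) h.hmx (gen_KK h.tri) hfst (irr_isCharacter χ.2)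
  have h1 := CfsgLib.CharBasic.parseval (gen_classFun hgen) (gen_classFun hgen)
  rw [inner_star_GG h.hM h.hB h.hmx hfst hfst hχ (irr_classFun χ.2)] at h1
  have h2 : ∑ v : P, ext0 P (KK φ μ) v * conj (ext0 P (KK φ μ) v) *
      GG 2 P c (χ : G → ℂ) (χ : G → ℂ) v = 4 * ∑ v : P, KK φ μ v * GG 2 P c (χ : G → ℂ) (χ : G → ℂ) v := by
    rw [Finset.mul_sum]
    refine Finset.sum_congr rfl fun v _ => ?_
    rw [ext0_mem _ v.2]
    obtain ⟨e1, e2⟩ := KK_real h.tri v
    have e3 : (⟨(v : G), v.2⟩ : P) = v := rfl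
    rw [e3, e1, e2]; ring
  rw [h2] at h1
  have h3 : ∀ ψ : IrrCharacter G, classInner (star 2 M (HF 2 P c (ext0 P (KK φ μ))) (χ : G → ℂ))
      (ψ : G → ℂ) * conj (classInner (star 2 M (HF 2 P c (ext0 P (KK φ μ))) (χ : G → ℂ))
      (ψ : G → ℂ)) = (h.TT χ ψ : ℂ) ^ 2 := by
    intro ψ
    rw [h.TT_inner hχ ψ, map_intCast]; ring
  rw [Finset.sum_congr rfl fun ψ _ => h3 ψ, mul_left_comm, h.TT_eq hχ hχ] at h1
  exact_mod_cast h1.symm

theorem wt_eq (h : Cx M B P c φ μ) (v : P) (hv : v ≠ 1) : wt 2 P c (v : G) = 1 / 3 := by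
  have hv1 : (v : G) ≠ 1 := fun h' => hv (Subtype.ext h')
  have hCPT : Subgroup.centralizer (P : Set G) ≤ TS ⊤ P c := by
    have h1 := CH_le_TS h.hmx.1.1
    rwa [CH_top] at h1
  have hinter : TS ⊤ P c ⊓ CH ⊤ (Subgroup.zpowers (v : G)) = Subgroup.centralizer (P : Set G) := by
    apply le_antisymm
    · rintro x ⟨h1, h2⟩; exact h.free v v.2 hv1 x h1 h2
    · refine le_inf hCPT ?_
      rw [CH_top]
      exact centralizer_anti (by rw [Subgroup.zpowers_le]; exact v.2)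
  rw [wt_abel (g_blk h.hB) h.hmx h.hab v.2, rank_local h.hM (g_blk h.hB) h.hmx h.hab v.2
    (h.free v v.2 hv1), hinter, h.idx, Nat.cast_one, mul_one]
  have h2 : (Nat.card (Subgroup.centralizer (P : Set G)) : ℂ) ≠ 0 := by
    exact_mod_cast Nat.card_pos.ne'
  push_cast
  field_simp

theorem card_k (h : Cx M B P c φ μ) :
    3 * Nat.card B + 1 = 3 * blockRank 2 B + Nat.card P := by
  classical
  have h1 := card_formula h.hM h.hB h.hmx
  rw [← Finset.add_sum_erase Finset.univ _ (Finset.mem_univ (1 : P)),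
    Finset.sum_congr rfl (fun v hv => h.wt_eq v (Finset.ne_of_mem_erase hv)), Finset.sum_const,
    Finset.card_erase_of_mem (Finset.mem_univ _), Finset.card_univ,
    ← Nat.card_eq_fintype_card (α := P)] at h1
  have h2 : wt 2 P c ((1 : P) : G) = blockRank 2 B := wt_one h.hB h.hmx
  rw [h2, nsmul_eq_mul, Nat.cast_sub Nat.card_pos] at h1
  have h3 : ((3 * Nat.card B + 1 : ℕ) : ℂ) = ((3 * blockRank 2 B + Nat.card P : ℕ) : ℂ) := by
    push_cast
    rw [h1]; push_cast; ring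
  exact_mod_cast h3

theorem trace (h : Cx M B P c φ μ) :
    ∑ χ : IrrCharacter G, h.TT χ χ = Nat.card P := by
  classical
  have h1 := trace_formula h.hM h.hB h.hmx (h.fst (KK_phi h.tri))
  have h2 : ∀ χ : IrrCharacter G, ind B χ *
      classInner (star 2 M (HF 2 P c (ext0 P (KK φ μ))) (χ : G → ℂ)) (χ : G → ℂ) = (h.TT χ χ : ℂ) := by
    intro χ
    by_cases hχ : χ ∈ B
    · rw [h.TT_inner hχ, ind_of hχ, one_mul]
    · rw [ind_not hχ, zero_mul]
      unfold TT
      rw [dif_neg (fun h' => hχ h'.1)]; norm_num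
  rw [Finset.sum_congr rfl fun χ _ => h2 χ] at h1
  have h3 : ∀ v : P, ext0 P (KK φ μ) v * wt 2 P c (v : G) = (1 / 3 : ℂ) * KK φ μ v := by
    intro v
    rw [ext0_mem _ v.2]
    have e3 : (⟨(v : G), v.2⟩ : P) = v := rfl
    rw [e3]
    by_cases hv : v = 1
    · subst hv
      have : KK φ μ (1 : P) = 0 := by
        unfold KK
        rw [ev_at_one, ev_at_one, ev_at_one]; norm_num
      rw [this]; ring
    · rw [h.wt_eq v hv]; ring
  rw [Finset.sum_congr rfl fun v _ => h3 v, ← Finset.mul_sum] at h1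
  have h4 : ∑ v : P, KK φ μ v = 3 * (Nat.card P : ℂ) := by
    unfold KK
    rw [Finset.sum_sub_distrib, Finset.sum_sub_distrib, Finset.sum_sub_distrib, sum_ev h.tri.m1,
      sum_ev h.tri.wm1, sum_ev h.tri.wwm1, Finset.sum_const, Finset.card_univ, nsmul_eq_mul,
      Nat.card_eq_fintype_card]
    ring
  rw [h4] at h1
  have h5 : ((∑ χ : IrrCharacter G, h.TT χ χ : ℤ) : ℂ) = ((Nat.card P : ℤ) : ℂ) := by
    push_cast
    rw [h1]; ring
  exact_mod_cast h5

/-- the value of `F` at one -/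
theorem F_one (h : Cx M B P c φ μ) {χ : IrrCharacter G} (hχ : χ ∈ B) :
    3 * GG 2 P c (χ : G → ℂ) (χ : G → ℂ) 1 = 3 * ((mm 2 B χ χ : ℤ) : ℂ) := by
  rw [GG_one h.hM h.hB h.hmx hχ hχ]

theorem real (h : Cx M B P c φ μ) {χ : IrrCharacter G} (hχ : χ ∈ B) (v : P) :
    conj (3 * GG 2 P c (χ : G → ℂ) (χ : G → ℂ) v) = 3 * GG 2 P c (χ : G → ℂ) (χ : G → ℂ) v := by
  obtain ⟨r, -, hr⟩ := h.pos hχ v
  rw [hr, Complex.conj_ofReal]

theorem TT_ne_two (h : Cx M B P c φ μ) {χ : IrrCharacter G} (hχ : χ ∈ B) : h.TT χ χ ≠ 2 := by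
  intro h2
  obtain ⟨a, ha, h1⟩ := h.TT_spec hχ hχ
  rw [h1] at h2
  have h3 := h.a_one hχ hχ ha
  rw [if_pos rfl] at h3
  have h4 := two_mod h.tri ha (h.pos hχ) h2 h3 (h.F_one hχ)
  by_cases h0 : blockHeight 2 B (χ : G → ℂ) = 0
  · have h5 := mm_not_dvd h.hM h.hB hχ h0 hχ
    rw [h0] at h5
    apply h5
    push_cast
    omega
  · have h5 := mm_dvd_succ h.hM h.hB hχ h0
    push_cast at h5
    omega

theorem TT_mem (h : Cx M B P c φ μ) {χ : IrrCharacter G} (hχ : χ ∈ B) :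
    h.TT χ χ = 1 ∨ h.TT χ χ = 3 := by
  have h0 := h.TT_ne_two hχ
  obtain ⟨a, ha, h1⟩ := h.TT_spec hχ hχ
  have h3 := h.a_one hχ hχ ha
  rw [if_pos rfl] at h3
  have h4 := weight_le h.tri ha (h.pos hχ) h3
  have h5 := S_one_pos h.tri ha (h.pos hχ)
  rw [← h1] at h4 h5
  omega

theorem height (h : Cx M B P c φ μ) {χ : IrrCharacter G} (hχ : χ ∈ B) :
    blockHeight 2 B (χ : G → ℂ) = 0 := by
  classical
  by_contra h0
  haveI := finCh h.tri.ab
  haveI : Fintype (Ch P) := Fintype.ofFinite _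
  have h5 := mm_dvd_succ h.hM h.hB hχ h0
  obtain ⟨a, ha, h1⟩ := h.TT_spec hχ hχ
  have h6 := parity_one h.tri ha (h.real hχ)
  have h7 : (∑ f, a f : ℤ) = 3 * mm 2 B χ χ := by
    have := sum_a h.tri.ab ha
    rw [h.F_one hχ] at this
    exact_mod_cast this.symm
  rw [h7, ← h1] at h6
  push_cast at h5
  rcases h.TT_mem hχ with h8 | h8 <;> rw [h8] at h6 <;> omega

theorem TT_pair (h : Cx M B P c φ μ) {χ ψ : IrrCharacter G} (hχ : χ ∈ B) (hψ : ψ ∈ B)
    (h1 : h.TT χ χ = 1) (h2 : h.TT ψ ψ = 1) : h.TT χ ψ ≠ 0 := by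
  obtain ⟨a, ha, e1⟩ := h.TT_spec hχ hψ
  obtain ⟨b, hb, e2⟩ := h.TT_spec hχ hχ
  obtain ⟨d, hd, e3⟩ := h.TT_spec hψ hψ
  rw [e1]
  refine pair_ne h.tri ha (fun v hv => ?_)
  have hv1 : v ≠ 1 := by
    rintro rfl
    rcases h.tri.ka_cases 1 with h3 | h3
    · have := h3.2.2.1
      rw [ev_at_one] at this
      norm_num at this
    · exact hv h3
  have hv1' : (v : G) ≠ 1 := fun h' => hv1 (Subtype.ext h')
  have f1 := weight_one h.tri hb (h.pos hχ) (by rw [← e2]; exact h1) v hv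
  have f2 := weight_one h.tri hd (h.pos hψ) (by rw [← e3]; exact h2) v hv
  have hr := rank_local h.hM (g_blk h.hB) h.hmx h.hab v.2 (h.free v v.2 hv1')
  have f3 := WW_rank_one h.hM (ev_blk h.hmx.1.1 v.2) hr (irr_classFun χ.2) (irr_classFun ψ.2)
  have f4 : GG 2 P c (χ : G → ℂ) (χ : G → ℂ) v * GG 2 P c (ψ : G → ℂ) (ψ : G → ℂ) v =
      GG 2 P c (χ : G → ℂ) (ψ : G → ℂ) v * conj (GG 2 P c (χ : G → ℂ) (ψ : G → ℂ) v) := by
    unfold GG
    rw [map_div₀, map_mul, CfsgLib.Star.WW_symm, Complex.conj_natCast, Complex.conj_natCast]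
    linear_combination ((Nat.card P : ℂ) * (Nat.card P : ℂ) /
      (((AA 2 P c (v : G) (CfsgLib.Star.ev 2 P c v)).card : ℂ) *
        ((AA 2 P c (v : G) (CfsgLib.Star.ev 2 P c v)).card : ℂ))) * f3
  have f5 : ((Complex.normSq (3 * GG 2 P c (χ : G → ℂ) (ψ : G → ℂ) v) : ℝ) : ℂ) = 1 := by
    rw [Complex.normSq_eq_conj_mul_self, map_mul, Complex.conj_ofNat]
    have f6 : (3 * GG 2 P c (χ : G → ℂ) (χ : G → ℂ) v) * (3 * GG 2 P c (ψ : G → ℂ) (ψ : G → ℂ) v) = 1 := by
      rw [f1, f2, one_mul]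
    linear_combination f6 - 9 * f4
  exact_mod_cast f5

open Classical in
theorem main (h : Cx M B P c φ μ) (hP : 16 ∣ Nat.card P) (hcard : Nat.card P = 2 ^ blockDefect 2 B) :
    blockRank 2 B = 3 ∧ 3 * Nat.card B = Nat.card P + 8 := by
  classical
  haveI : Fact (Nat.Prime 2) := ⟨Nat.prime_two⟩
  set BF : Finset (IrrCharacter G) := Finset.univ.filter (fun χ => χ ∈ B) with hBF
  have hBcard : BF.card = Nat.card B := by
    rw [Nat.card_eq_fintype_card, Fintype.card_subtype]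
  set N1 := BF.filter (fun χ => h.TT χ χ = 1) with hN1
  set N3 := BF.filter (fun χ => ¬ h.TT χ χ = 1) with hN3
  have hsum : N1.card + N3.card = Nat.card B := by
    rw [← hBcard]
    exact Finset.card_filter_add_card_filter_not _
  have hout : ∀ χ, χ ∉ B → h.TT χ χ = 0 := by
    intro χ hχ
    unfold TT
    rw [dif_neg (fun h' => hχ h'.1)]
  have htr := h.trace
  have htr2 : ((N1.card : ℤ) + 3 * N3.card) = Nat.card P := by
    rw [← htr, ← Finset.sum_filter_add_sum_filter_not Finset.univ (fun χ : IrrCharacter G => χ ∈ B),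
      Finset.sum_eq_zero (s := Finset.univ.filter (fun χ : IrrCharacter G => ¬ χ ∈ B)), add_zero,
      ← hBF, ← Finset.sum_filter_add_sum_filter_not BF (fun χ => h.TT χ χ = 1), ← hN1, ← hN3]
    · rw [Finset.sum_congr rfl (g := fun _ => (1 : ℤ)) (fun χ hχ => (Finset.mem_filter.1 hχ).2),
        Finset.sum_congr (s₁ := N3) rfl (g := fun _ => (3 : ℤ)) (fun χ hχ => by
          obtain ⟨h1, h2⟩ := Finset.mem_filter.1 hχ
          exact (h.TT_mem (Finset.mem_filter.1 h1).2).resolve_left h2)]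
      simp [mul_comm]
      rw [hN1]
    · intro χ hχ
      exact hout χ (Finset.mem_filter.1 hχ).2
  -- at most four
  have h4 : N1.card ≤ 4 := by
    by_cases hne : N1 = ∅
    · rw [hne]; simp
    · obtain ⟨χ, hχ⟩ := Finset.nonempty_iff_ne_empty.2 hne
      obtain ⟨hχB, hχ1⟩ := Finset.mem_filter.1 hχ
      have hχB' := (Finset.mem_filter.1 hχB).2
      have h5 := h.parse hχB'
      rw [hχ1] at h5
      have h6 : (N1.card : ℤ) ≤ ∑ ψ : IrrCharacter G, h.TT χ ψ ^ 2 := by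
        calc (N1.card : ℤ) = ∑ ψ ∈ N1, (1 : ℤ) := by simp
          _ ≤ ∑ ψ ∈ N1, h.TT χ ψ ^ 2 := by
              refine Finset.sum_le_sum fun ψ hψ => ?_
              obtain ⟨hψB, hψ1⟩ := Finset.mem_filter.1 hψ
              have := h.TT_pair hχB' (Finset.mem_filter.1 hψB).2 hχ1 hψ1
              have h7 : 0 < h.TT χ ψ ^ 2 := by positivity
              omega
          _ ≤ _ := Finset.sum_le_sum_of_subset_of_nonneg (Finset.subset_univ _)
              (fun ψ _ _ => sq_nonneg _)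
      rw [h5] at h6
      exact_mod_cast h6
  -- divisibility of the number of characters by eight
  have h8 : 8 ∣ Nat.card B := by
    have hd := defect_le 2 B
    have h1 := CfsgLib.BlockSq.s4491 h.hM h.hB
    have h2 : ∀ χ : IrrCharacter G, ∃ o : ℕ, χ ∈ B → charDegree (χ : G → ℂ) =
        2 ^ ((Nat.card G).factorization 2 - blockDefect 2 B) * (2 * o + 1) := by
      intro χ
      by_cases hχ : χ ∈ B
      · have h3 := degree_eq h.hM h.hB hχ
        rw [h.height hχ, add_zero] at h3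
        have h4 : (charDegree (χ : G → ℂ)).factorization 2 =
            (Nat.card G).factorization 2 - blockDefect 2 B := by omega
        have h5 := Nat.ordProj_mul_ordCompl_eq_self (charDegree (χ : G → ℂ)) 2
        have h6 := Nat.not_dvd_ordCompl Nat.prime_two (irr_charDegree_pos χ.2).ne'
        rw [h4] at h5 h6
        refine ⟨(charDegree (χ : G → ℂ) / 2 ^ ((Nat.card G).factorization 2 -
          blockDefect 2 B)) / 2, fun _ => ?_⟩
        have h7 : 2 * ((charDegree (χ : G → ℂ) / 2 ^ ((Nat.card G).factorization 2 -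
          blockDefect 2 B)) / 2) + 1 = charDegree (χ : G → ℂ) / 2 ^ ((Nat.card G).factorization 2 -
          blockDefect 2 B) := by omega
        rw [h7, h5]
      · exact ⟨0, fun h' => absurd h' hχ⟩
    choose o ho using h2
    have h3 : ∑ᶠ χ ∈ B, charDegree (χ : G → ℂ) ^ 2 =
        2 ^ (2 * ((Nat.card G).factorization 2 - blockDefect 2 B)) * ∑ χ ∈ BF, (2 * o χ + 1) ^ 2 := by
      rw [finsum_mem_eq_finite_toFinset_sum _ (Set.toFinite B), Finset.mul_sum]
      have h4 : (Set.toFinite B).toFinset = BF := by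
        ext χ; simp [hBF]
      rw [h4]
      refine Finset.sum_congr rfl fun χ hχ => ?_
      rw [ho χ (Finset.mem_filter.1 hχ).2, mul_pow, ← pow_mul, mul_comm 2
        ((Nat.card G).factorization 2 - blockDefect 2 B)]
    rw [h3] at h1
    have hBne : 0 < ∑ χ ∈ BF, (2 * o χ + 1) ^ 2 := by
      obtain ⟨χ, hχ⟩ := block_nonempty hPr h.hB
      refine Finset.sum_pos' (fun _ _ => Nat.zero_le _) ⟨χ, Finset.mem_filter.2 ⟨Finset.mem_univ _, hχ⟩, ?_⟩
      positivity
    rw [Nat.factorization_mul (by positivity) hBne.ne', Finsupp.add_apply,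
      Nat.Prime.factorization_pow Nat.prime_two, Finsupp.single_eq_same] at h1
    have hd4 : 4 ≤ blockDefect 2 B := by
      have h5 : (2 : ℕ) ^ 4 ∣ 2 ^ blockDefect 2 B := by rw [← hcard]; exact hP
      exact (Nat.pow_dvd_pow_iff_le_right (by norm_num)).1 h5
    have h6 : 4 ≤ (∑ χ ∈ BF, (2 * o χ + 1) ^ 2).factorization 2 := by omega
    have h7 : (2 : ℕ) ^ 4 ∣ ∑ χ ∈ BF, (2 * o χ + 1) ^ 2 :=
      (Nat.Prime.pow_dvd_iff_le_factorization Nat.prime_two hBne.ne').2 h6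
    have h9 : ∀ n : ℕ, ∃ t, (2 * n + 1) ^ 2 = 8 * t + 1 := by
      intro n
      obtain ⟨t, ht⟩ := Nat.even_mul_succ_self n
      exact ⟨t, by nlinarith⟩
    choose t ht using h9
    have h10 : ∑ χ ∈ BF, (2 * o χ + 1) ^ 2 = 8 * (∑ χ ∈ BF, t (o χ)) + BF.card := by
      rw [Finset.sum_congr rfl fun χ _ => ht (o χ), Finset.sum_add_distrib, ← Finset.mul_sum]
      simp
    rw [h10, hBcard] at h7
    have h11 : 8 ∣ 8 * (∑ χ ∈ BF, t (o χ)) + Nat.card B := Dvd.dvd.trans (by norm_num) h7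
    exact (Nat.dvd_add_right (Dvd.intro _ rfl)).1 h11
  have hk := h.card_k
  obtain ⟨q, hq⟩ := hP
  obtain ⟨r, hr⟩ := h8
  rw [hq] at htr2 hk ⊢
  have e1 : (N1.card : ℤ) + 3 * N3.card = 16 * q := by exact_mod_cast htr2
  constructor <;> omega

end Cx

end CfsgLib.Qc
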