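import Mathlib
import Cfsg.Agent.LibQc6
import Cfsg.Agent.LibHomoSyl
import Cfsg.Agent.LibQb11

/-!
# Homocyclic defect groups, VII: S4552 (helper17)
-/

set_option autoImplicit false
set_option linter.unusedSectionVars false
set_option linter.style.haveILetI false
set_option linter.unusedSimpArgs false
set_option linter.unusedVariables false

namespace CfsgLib.Qc

open Cfsg CfsgLib.GalChar CfsgLib.GalField CfsgLib.BlockReg CfsgLib.BlockReg2 CfsgLib.LocR
  CfsgLib.BrP CfsgLib.Car CfsgLib.BlockQP CfsgLib.BlockDefect CfsgLib.BlockM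
  CfsgLib.Points CfsgLib.PLocalInd CfsgLib.CharBasic CfsgLib.BlockCore CfsgLib.BlockSec
  CfsgLib.BlockR CfsgLib.BlockIdem CfsgLib.BlockOrth CfsgLib.CharIndA CfsgLib.CharNorm
open CfsgLib.Star (GG WW dv star HF FSt Mv pp ev_spec ev_blk ev_mv_conj inner_star_GG star_HF_gen
  star_HF_one star_HF_out FSt_const GG_one GG_pos dv_major wt wt_abel wt_one trace_formula
  card_formula rank_local abelian_move WW_conj AA_card_conj AA bset bset_spec dv_expand dv_eq mem_C
  sum_pp_C comm_of_C CH_zp mem_cen pp_iff HF_of cS_zpowers)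
open scoped ComplexConjugate Pointwise

universe u

section Aut
variable {P : Type u} [Group P] [Finite P] {m : ℕ}

/-- elements with square one -/
abbrev Sq (P : Type u) [Group P] : Type u := {v : P // v * v = 1}

theorem card_sq (hm : 1 ≤ m) (e : P ≃* Multiplicative (ZMod (2 ^ m) × ZMod (2 ^ m))) :
    Nat.card (Sq P) = 4 := by
  classical
  haveI : NeZero (2 ^ m) := ⟨by positivity⟩
  set h : ZMod (2 ^ m) := ((2 ^ (m - 1) : ℕ) : ZMod (2 ^ m)) with hh
  have hh0 : h ≠ 0 := HomoSyl.half_ne_zero hm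
  set T : Finset (ZMod (2 ^ m)) := {0, h} with hT
  have hTc : T.card = 2 := by
    rw [hT, Finset.card_insert_of_notMem, Finset.card_singleton]
    simp [hh0.symm]
  have h1 : Nat.card (Sq P) = Nat.card {x : ZMod (2 ^ m) × ZMod (2 ^ m) // x ∈ T ×ˢ T} := by
    refine Nat.card_congr ((e.toEquiv.trans Multiplicative.toAdd).subtypeEquiv ?_)
    intro v
    show v * v = 1 ↔ Multiplicative.toAdd (e v) ∈ T ×ˢ T
    have h2 : v * v = 1 ↔ Multiplicative.toAdd (e v) + Multiplicative.toAdd (e v) = 0 := by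
      rw [← toAdd_mul, ← map_mul, ← toAdd_one, Multiplicative.toAdd.injective.eq_iff, ← map_one e,
        e.injective.eq_iff]
    rw [h2]
    generalize Multiplicative.toAdd (e v) = z
    rcases z with ⟨a, b⟩
    rw [Finset.mem_product, Prod.mk_add_mk, Prod.mk_eq_zero, ← two_mul, ← two_mul,
      HomoSyl.two_mul_eq_zero_iff hm, HomoSyl.two_mul_eq_zero_iff hm]
    simp only [hT, Finset.mem_insert, Finset.mem_singleton, ← hh]
  rw [h1, Nat.card_eq_fintype_card, Fintype.card_coe, Finset.card_product, hTc]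

/-- an automorphism of odd order trivial on the elements with square one is trivial -/
theorem odd_trivial (hab : ∀ a b : P, a * b = b * a) (hpg : IsPGroup 2 P) {α : MulAut P} {k : ℕ}
    (hk : α ^ k = 1) (hodd : ¬ 2 ∣ k) (h1 : ∀ v : P, v * v = 1 → α v = v) : α = 1 := by
  have key : ∀ (i : ℕ) (v : P), v ^ (2 ^ i) = 1 → α v = v := by
    intro i
    induction i with
    | zero => intro v hv; rw [pow_zero, pow_one] at hv; rw [hv, map_one]
    | succ i ih =>
      intro v hv
      have h2 : α (v * v) = v * v := ih (v * v) (by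
        rw [← pow_two, ← pow_mul, ← pow_succ']; exact hv)
      set z := α v * v⁻¹ with hz
      have hzv : α v = z * v := by rw [hz, inv_mul_cancel_right]
      have hz2 : z * z = 1 := by
        rw [map_mul, hzv] at h2
        have : z * z * (v * v) = 1 * (v * v) := by
          calc z * z * (v * v) = z * (z * v) * v := by simp only [mul_assoc]
            _ = z * (v * z) * v := by rw [hab z v]
            _ = z * v * (z * v) := by simp only [mul_assoc]
            _ = 1 * (v * v) := by rw [h2, one_mul]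
        exact mul_right_cancel this
      have hzα := h1 z hz2
      have hpow : ∀ j : ℕ, (α ^ j) v = z ^ j * v := by
        intro j
        induction j with
        | zero => simp
        | succ j ihj =>
          rw [pow_succ', MulAut.mul_apply, ihj, map_mul, map_pow, hzα, hzv, ← mul_assoc, pow_succ]
      have h3 := hpow k
      rw [hk, MulAut.one_apply] at h3
      have h4 : z ^ k = 1 := by
        have : z ^ k * v = 1 * v := by rw [one_mul]; exact h3.symm
        exact mul_right_cancel this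
      have h5 : z = 1 := by
        have h6 : orderOf z ∣ k := orderOf_dvd_of_pow_eq_one h4
        have h7 : orderOf z ∣ 2 := orderOf_dvd_of_pow_eq_one (by rw [pow_two]; exact hz2)
        rcases (Nat.dvd_prime Nat.prime_two).1 h7 with h8 | h8
        · exact orderOf_eq_one_iff.1 h8
        · rw [h8] at h6; exact absurd h6 hodd
      rw [hzv, h5, one_mul]
  apply MulEquiv.ext
  intro v
  obtain ⟨i, hi⟩ := hpg v
  rw [MulAut.one_apply]
  exact key i v hi

theorem four_elems (h4 : Nat.card (Sq P) = 4) {z w : P} (hz : z * z = 1) (hw : w * w = 1)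
    (hz1 : z ≠ 1) (hw1 : w ≠ 1) (hzw : w ≠ z) (hab : ∀ a b : P, a * b = b * a) (v : P) (hv : v * v = 1) :
    v = 1 ∨ v = z ∨ v = w ∨ v = z * w := by
  classical
  haveI : Fintype (Sq P) := Fintype.ofFinite _
  by_contra hn
  push Not at hn
  obtain ⟨n1, n2, n3, n4⟩ := hn
  have hzw2 : z * w * (z * w) = 1 := by
    rw [mul_assoc, ← mul_assoc w z, hab w z, mul_assoc z w w, hw, mul_one, hz]
  have a1 : z * w ≠ 1 := by
    intro h
    apply hzw
    calc w = z * z * w := by rw [hz, one_mul]
      _ = z := by rw [mul_assoc, h, mul_one]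
  have a2 : z * w ≠ z := fun h => hw1 (by simpa using h)
  have a3 : z * w ≠ w := fun h => hz1 (by simpa using h)
  set S : Finset (Sq P) := {⟨1, one_mul 1⟩, ⟨z, hz⟩, ⟨w, hw⟩, ⟨z * w, hzw2⟩, ⟨v, hv⟩} with hS
  have hc : S.card = 5 := by
    rw [hS, Finset.card_insert_of_notMem, Finset.card_insert_of_notMem, Finset.card_insert_of_notMem,
      Finset.card_insert_of_notMem, Finset.card_singleton]
    · simp [n4.symm]
    · simp [a3.symm, n3.symm]
    · simp [hzw.symm, a2.symm, n2.symm, hw1]
    · simp [hz1.symm, hw1.symm, a1.symm, n1.symm]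
  have h5 : S.card ≤ Fintype.card (Sq P) := Finset.card_le_univ _
  rw [← Nat.card_eq_fintype_card, h4, hc] at h5
  omega

theorem odd_free (hab : ∀ a b : P, a * b = b * a) (hpg : IsPGroup 2 P) (h4 : Nat.card (Sq P) = 4)
    {α : MulAut P} {k : ℕ} (hk : α ^ k = 1) (hodd : ¬ 2 ∣ k) {v : P} (hv : v ≠ 1)
    (hfix : α v = v) : α = 1 := by
  classical
  haveI : Fintype (Sq P) := Fintype.ofFinite _
  -- an involution fixed by `α`
  obtain ⟨z, hz1, hz2, hzα⟩ : ∃ z : P, z ≠ 1 ∧ z * z = 1 ∧ α z = z := by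
    obtain ⟨i, hi⟩ := hpg v
    have hex : ∃ j, v ^ (2 ^ j) = 1 := ⟨i, hi⟩
    set j := Nat.find hex with hj
    have hj1 := Nat.find_spec hex
    rw [← hj] at hj1
    have hj0 : j ≠ 0 := by
      intro h0
      rw [h0, pow_zero, pow_one] at hj1
      exact hv hj1
    obtain ⟨l, hl⟩ := Nat.exists_eq_succ_of_ne_zero hj0
    refine ⟨v ^ (2 ^ l), ?_, ?_, ?_⟩
    · intro h
      have := Nat.find_min' hex h
      rw [← hj] at this
      omega
    · rw [← pow_two, ← pow_mul, ← pow_succ]
      rw [hl] at hj1; exact hj1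
    · rw [map_pow, hfix]
  apply odd_trivial hab hpg hk hodd
  intro w hw
  by_cases hw1 : w = 1
  · rw [hw1, map_one]
  by_cases hwz : w = z
  · rw [hwz, hzα]
  have h5 := four_elems h4 hz2 hw hz1 hw1 hwz hab (α w) (by rw [← map_mul, hw, map_one])
  rcases h5 with h5 | h5 | h5 | h5
  · exact absurd (α.injective (h5.trans (map_one α).symm)) hw1
  · exact absurd (α.injective (h5.trans hzα.symm)) hwz
  · exact h5
  · -- `α w = z w`
    have h6 : α (α w) = w := by
      rw [h5, map_mul, hzα, h5, ← mul_assoc, hz2, one_mul]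
    have h7 : ∀ n : ℕ, (α ^ (2 * n)) w = w := by
      intro n
      induction n with
      | zero => simp
      | succ n ih =>
        rw [mul_add, mul_one, pow_add, pow_two, MulAut.mul_apply, MulAut.mul_apply, h6, ih]
    obtain ⟨n, hn⟩ : ∃ n, k = 2 * n + 1 := ⟨k / 2, by omega⟩
    have h8 : (α ^ k) w = w := by rw [hk, MulAut.one_apply]
    rw [hn, pow_succ', MulAut.mul_apply, h7] at h8
    exact h8

theorem aut_card (hab : ∀ a b : P, a * b = b * a) (hpg : IsPGroup 2 P) (h4 : Nat.card (Sq P) = 4)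
    {A : Subgroup (MulAut P)} (hA : ¬ 2 ∣ Nat.card A) : Nat.card A = 1 ∨ Nat.card A = 3 := by
  classical
  haveI : Finite (MulAut P) := inferInstance
  have hpow : ∀ α : A, (α : MulAut P) ^ Nat.card A = 1 := by
    intro α
    have := pow_card_eq_one' (x := α)
    exact_mod_cast congrArg Subtype.val this
  have hz : ∃ z : P, z ≠ 1 ∧ z * z = 1 := by
    by_contra hn
    push Not at hn
    have : Nat.card (Sq P) = 1 := by
      rw [Nat.card_eq_one_iff_unique]
      refine ⟨⟨?_⟩, ⟨⟨1, one_mul 1⟩⟩⟩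
      rintro ⟨a, ha⟩ ⟨b, hb⟩
      apply Subtype.ext
      have h1 : a = 1 := by by_contra h; exact hn a h ha
      have h2 : b = 1 := by by_contra h; exact hn b h hb
      show a = b
      rw [h1, h2]
    omega
  obtain ⟨z, hz1, hz2⟩ := hz
  let f : A → {x : Sq P // x ≠ ⟨1, one_mul 1⟩} := fun α => ⟨⟨(α : MulAut P) z, by
    rw [← map_mul, hz2, map_one]⟩, fun h => hz1 ((α : MulAut P).injective (by
      rw [map_one]; exact congrArg Subtype.val h))⟩
  have hf : Function.Injective f := by
    intro α β h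
    have h1 : (α : MulAut P) z = (β : MulAut P) z := congrArg (fun x => (x.1 : P)) (congrArg Subtype.val h)
    have h2 := odd_free hab hpg h4 (α := (β : MulAut P)⁻¹ * α) (k := Nat.card A) (by
      have := hpow (β⁻¹ * α)
      exact_mod_cast this) hA hz1 (by
      rw [MulAut.mul_apply, h1]
      exact MulEquiv.symm_apply_apply _ _)
    exact Subtype.ext (inv_mul_eq_one.1 h2).symm
  have h1 := Nat.card_le_card_of_injective f hf
  have h2 : Nat.card {x : Sq P // x ≠ ⟨1, one_mul 1⟩} = 3 := by
    haveI : Fintype (Sq P) := Fintype.ofFinite _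
    rw [Nat.card_eq_fintype_card, Fintype.card_subtype_compl, Fintype.card_subtype_eq,
      ← Nat.card_eq_fintype_card, h4]
  have h3 : 0 < Nat.card A := Nat.card_pos
  rw [h2] at h1
  have h4 : Nat.card A ≠ 2 := fun h => hA (by rw [h])
  omega

theorem exists_tri [Fintype P] (hab : ∀ a b : P, a * b = b * a) (hpg : IsPGroup 2 P)
    (h4 : Nat.card (Sq P) = 4) {φ : MulAut P} (h3 : φ ^ 3 = 1) (hne : φ ≠ 1) :
    ∃ μ : Ch P, Tri (φ : P ≃* P) μ := by
  classical
  haveI : Finite (Ch P) := finCh hab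
  have hfix : ∀ v : P, φ v = v → v = 1 := by
    intro v hv
    by_contra hv1
    exact hne (odd_free hab hpg h4 h3 (by norm_num) hv1 hv)
  have hphi3 : ∀ v : P, φ (φ (φ v)) = v := by
    intro v
    have : (φ ^ 3) v = v := by rw [h3]; rfl
    rwa [pow_succ, pow_two, MulAut.mul_apply, MulAut.mul_apply] at this
  have hf3 : ∀ v, v * φ v * φ (φ v) = 1 := by
    intro v
    apply hfix
    rw [map_mul, map_mul, hphi3, hab _ v, ← mul_assoc]
  -- the dual group has four elements with square one
  have hdual : Nat.card {f : Ch P // f * f = 1} = 4 := by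
    letI : CommGroup P := { (inferInstance : Group P) with mul_comm := hab }
    obtain ⟨e⟩ := CommGroup.monoidHom_mulEquiv_of_hasEnoughRootsOfUnity P ℂ
    rw [← h4]
    refine Nat.card_congr (e.toEquiv.subtypeEquiv ?_)
    intro f
    show f * f = 1 ↔ e f * e f = 1
    rw [← map_mul, ← map_one e, e.injective.eq_iff]
  obtain ⟨μ, hμ1, hμ2⟩ : ∃ μ : Ch P, μ ≠ 1 ∧ μ * μ = 1 := by
    by_contra hn
    push Not at hn
    have : Nat.card {f : Ch P // f * f = 1} = 1 := by
      rw [Nat.card_eq_one_iff_unique]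
      refine ⟨⟨?_⟩, ⟨⟨1, one_mul 1⟩⟩⟩
      rintro ⟨a, ha⟩ ⟨b, hb⟩
      apply Subtype.ext
      have h1 : a = 1 := by by_contra h; exact hn a h ha
      have h2 : b = 1 := by by_contra h; exact hn b h hb
      show a = b
      rw [h1, h2]
    omega
  refine ⟨μ, hab, hf3, ?_, hμ1, hμ2, ?_⟩
  · exact IsPGroup.iff_card.1 hpg
  · intro f hf
    have hw3 : ∀ g : Ch P, g * w φ g * w φ (w φ g) = 1 := by
      intro g
      apply ch_ext
      intro v
      show g.h v * g.h (φ v) * g.h (φ (φ v)) = 1
      rw [← map_mul, ← map_mul, hf3, map_one]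
    have hwinj : ∀ g g' : Ch P, w φ g = w φ g' → g = g' := by
      intro g g' h
      have hw : ∀ g : Ch P, w φ (w φ (w φ g)) = g := by
        intro g
        apply ch_ext
        intro v
        show g.h (φ (φ (φ v))) = g.h v
        rw [hphi3]
      rw [← hw g, h, hw]
    have hwμ1 : w φ μ ≠ 1 := fun h => hμ1 (hwinj _ _ (by rw [h, map_one]))
    have hwμ : w φ μ ≠ μ := by
      intro h
      have h5 := hw3 μ
      rw [h, h, hμ2, one_mul] at h5
      exact hμ1 h5
    have hwμ2 : w φ μ * w φ μ = 1 := by rw [← map_mul, hμ2, map_one]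
    have h5 := four_elems (P := Ch P) hdual hμ2 hwμ2 hμ1 hwμ1 hwμ mul_comm f hf
    rcases h5 with h5 | h5 | h5 | h5
    · exact Or.inl h5
    · exact Or.inr (Or.inl h5)
    · exact Or.inr (Or.inr (Or.inl h5))
    · refine Or.inr (Or.inr (Or.inr ?_))
      have h6 := hw3 μ
      have h7 : w φ (w φ μ) = (μ * w φ μ)⁻¹ := eq_inv_of_mul_eq_one_right h6
      rw [h5, h7, mul_inv, inv_eq_of_mul_eq_one_right hμ2, inv_eq_of_mul_eq_one_right hwμ2]

end Aut

end CfsgLib.Qc
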