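import Mathlib
import Cfsg.Agent.LibQc7

/-!
# Homocyclic defect groups, VIII: S4552 (helper17)
-/

set_option autoImplicit false
set_option linter.unusedSectionVars false
set_option linter.style.haveILetI false
set_option linter.unusedSimpArgs false
set_option linter.unusedVariables false

namespace CfsgLib.Qc

open Cfsg CfsgLib.GalChar CfsgLib.GalField CfsgLib.BlockReg CfsgLib.BlockReg2 CfsgLib.LocR
  CfsgLib.BrP CfsgLib.Car CfsgLib.BlockQP CfsgLib.BlockDefect CfsgLib.BlockM
  CfsgLib.Points CfsgLib.PLocalInd CfsgLib.CharBasic CfsgLib.BlockCore CfsgLib.BlockSec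
  CfsgLib.BlockR CfsgLib.BlockIdem CfsgLib.BlockOrth CfsgLib.CharIndA CfsgLib.CharNorm
open CfsgLib.Star (GG WW dv star HF FSt Mv pp ev_spec ev_blk ev_mv_conj inner_star_GG star_HF_gen
  star_HF_one star_HF_out FSt_const GG_one GG_pos dv_major wt wt_abel wt_one trace_formula
  card_formula rank_local abelian_move WW_conj AA_card_conj AA bset bset_spec dv_expand dv_eq mem_C
  sum_pp_C comm_of_C CH_zp mem_cen pp_iff HF_of cS_zpowers)
open scoped ComplexConjugate Pointwise

universe u

theorem s4552 {M : Ideal AlgInt} {G : Type u} [Group G] [Fintype G] (hM : IsPModular 2 M)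
    {B : Set (IrrCharacter G)} (hB : IsPBlock M B) {D : Subgroup G} (hD : IsDefectGroup 2 M B D)
    {m : ℕ} (hm : 2 ≤ m) (e : D ≃* Multiplicative (ZMod (2 ^ m) × ZMod (2 ^ m))) :
    (blockRank 2 B = 1 ∧ Nat.card B = 4 ^ m) ∨ (blockRank 2 B = 3 ∧ 3 * Nat.card B = 4 ^ m + 8) := by
  classical
  haveI hPr : M.IsPrime := isPrime_of_modular hM
  haveI : M.IsMaximal := hM.2.1
  haveI : Fact (Nat.Prime 2) := ⟨Nat.prime_two⟩
  haveI := charP_kM hM
  haveI : Fintype D := Fintype.ofFinite D
  have hab := HomoSyl.comm_of_equiv e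
  have habD : ∀ a b : D, a * b = b * a := fun a b => Subtype.ext (hab a a.2 b b.2)
  have hdef := (g_def hM hB).1 hD
  obtain ⟨c0, he⟩ := exists_of_br_ne (g_blk hB) le_top hdef.pg hdef.br
  obtain ⟨c, hc, rfl⟩ := g_surj he.1.blk
  have hmx : IsMx 2 ⊤ (JB M B) D (J M D c) := isMx_of_isDef (g_blk hB) hdef he
  have hcind : IsInducedBlock M (Subgroup.centralizer (D : Set G)) c B :=
    br_ind hM hdef.pg (Star.ab_cen hab) (Subgroup.centralizer_le_normalizer _) le_rfl hc hB he.2
  have hT : ∀ g : G, g ∈ TS ⊤ D (J M D c) ↔ (g ∈ Subgroup.normalizer (D : Set G) ∧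
      StabilizesBlock (Subgroup.centralizer (D : Set G)) c g) := fun g => (g_stab hc).symm
  set T := TS ⊤ D (J M D c) with hTdef
  have hTN : T ≤ Subgroup.normalizer (D : Set G) := TS_le_normalizer
  have hodd := act_card hTN (Star.ab_pel hM hB hD hab hcind hT)
  have hrel := Star.relIndex_act hTN
  have hcard : Nat.card D = 4 ^ m := by
    rw [Nat.card_congr e.toEquiv]
    show Nat.card (Multiplicative (ZMod (2 ^ m) × ZMod (2 ^ m))) = _
    rw [Nat.card_congr Multiplicative.toAdd, Nat.card_prod, Nat.card_zmod, ← pow_add,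
      show (4 : ℕ) = 2 ^ 2 by norm_num, ← pow_mul]
    congr 1; ring
  have hpg : IsPGroup 2 D := hdef.pg
  have h4 := card_sq (P := D) (by omega) e
  have hCT : Subgroup.centralizer (D : Set G) ≤ T := by
    have h1 := CH_le_TS hmx.1.1
    rwa [CH_top] at h1
  have hApow : ∀ α ∈ (actHom D T hTN).range, α ^ Nat.card (actHom D T hTN).range = 1 := by
    intro α hα
    have h0 := pow_card_eq_one' (x := (⟨α, hα⟩ : (actHom D T hTN).range))
    have h0' := congrArg Subtype.val h0
    rw [Subgroup.coe_pow] at h0'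
    exact h0'
  have hfree : ∀ v ∈ D, v ≠ 1 → ∀ x ∈ T, x ∈ CH ⊤ (Subgroup.zpowers v) →
      x ∈ Subgroup.centralizer (D : Set G) := by
    intro v hv hv1 x hx hxC
    have h1 : actHom D T hTN ⟨x, hx⟩ = 1 := by
      refine odd_free habD hpg h4 (hApow _ ⟨_, rfl⟩) hodd (v := ⟨v, hv⟩)
        (fun h => hv1 (congrArg Subtype.val h)) ?_
      apply Subtype.ext
      rw [actHom_apply]
      show x * v * x⁻¹ = v
      rw [comm_of_C hxC, mul_inv_cancel_right]
    exact (actHom_eq_one hTN).1 h1
  rcases aut_card habD hpg h4 hodd with h1 | h1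
  · left
    have hTC : T = Subgroup.centralizer (D : Set G) := by
      apply le_antisymm _ hCT
      intro x hx
      rw [h1] at hrel
      have h2 : T ≤ Subgroup.centralizer (D : Set G) := Subgroup.relIndex_eq_one.1 hrel
      exact h2 hx
    have hwt : ∀ v : D, wt 2 D (J M D c) (v : G) = 1 := by
      intro v
      have h2 : T ⊓ CH ⊤ (Subgroup.zpowers (v : G)) = T := by
        apply inf_eq_left.2
        rw [hTC, CH_top]
        exact centralizer_anti (by rw [Subgroup.zpowers_le]; exact v.2)
      rw [wt_abel (g_blk hB) hmx hab v.2, rank_local hM (g_blk hB) hmx hab v.2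
        (fun x hx _ => by rw [← hTC]; exact hx), ← hTdef, h2, Nat.cast_one, mul_one, div_self]
      exact_mod_cast Nat.card_pos.ne'
    have h2 := wt_one hB hmx
    have h3 := hwt 1
    rw [show ((1 : D) : G) = 1 from rfl, h2] at h3
    have h5 := card_formula hM hB hmx
    rw [Finset.sum_congr rfl fun v _ => hwt v] at h5
    rw [Finset.sum_const, Finset.card_univ, nsmul_eq_mul, mul_one, ← Nat.card_eq_fintype_card,
      hcard] at h5
    exact ⟨by exact_mod_cast h3, by exact_mod_cast h5⟩
  · right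
    -- a generator
    haveI : Fact (Nat.card (actHom D T hTN).range).Prime := ⟨by rw [h1]; norm_num⟩
    obtain ⟨a, ha⟩ : ∃ a : (actHom D T hTN).range, a ≠ 1 := by
      haveI : Nontrivial (actHom D T hTN).range := by
        rw [← Finite.one_lt_card_iff_nontrivial, h1]; norm_num
      exact exists_ne 1
    have hgen : ∀ b : (actHom D T hTN).range, b ∈ Subgroup.zpowers a := by
      intro b
      have h2 := zpowers_eq_top_of_prime_card rfl ha
      rw [h2]; exact Subgroup.mem_top _
    obtain ⟨φ, t, hφt⟩ := a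
    have hφ3 : φ ^ 3 = 1 := by
      have := hApow φ ⟨t, hφt⟩
      rwa [h1] at this
    have hφ1 : φ ≠ 1 := fun h => ha (Subtype.ext h)
    obtain ⟨μ, hμ⟩ := exists_tri habD hpg h4 hφ3 hφ1
    have hcx : Cx M B D (J M D c) (φ : D ≃* D) μ := by
      refine ⟨hM, hB, hmx, hab, hμ, ?_, ?_, hfree, ?_⟩
      · intro x hx
        have h2 := hgen ⟨actHom D T hTN ⟨x, hx⟩, ⟨_, rfl⟩⟩
        rw [← mem_powers_iff_mem_zpowers] at h2
        obtain ⟨n, hn⟩ := h2
        refine ⟨n, fun v => ?_⟩
        have h3 : φ ^ n = actHom D T hTN ⟨x, hx⟩ := by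
          have := congrArg Subtype.val hn
          simpa using this
        rw [h3]
        rfl
      · refine ⟨t, t.2, fun v => ?_⟩
        rw [← hφt]
        rfl
      · rw [← hTdef]
        have h2 : (Subgroup.centralizer (D : Set G)).relIndex T = 3 := by rw [hrel, h1]
        rw [← h2, Subgroup.relIndex, mul_comm,
          ← Nat.card_congr (Subgroup.subgroupOfEquivOfLe hCT).toEquiv]
        exact (Subgroup.card_mul_index _).symm
    have h16 : 16 ∣ Nat.card D := by
      rw [hcard]
      exact pow_dvd_pow 4 hm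
    have h5 := hcx.main h16 (card_defectGroup hM hB hD)
    rw [hcard] at h5
    exact h5

end CfsgLib.Qc
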