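import Cfsg.Agent.LibReal4
import Cfsg.Agent.LibGalChar
import Cfsg.Agent.LibGalChar2
import Cfsg.Agent.LibQuot19
import Cfsg.Agent.LibClifford2
import Cfsg.Agent.LibCharInt2

set_option autoImplicit false
set_option linter.all false

/-! Real characters of `p'`-degree. -/

open scoped ComplexConjugate commutatorElement
open Cfsg CfsgLib.CharBasic CfsgLib.CharIndA CfsgLib.Clifford

namespace CfsgLib.RealDeg4

universe u

section lift
variable {G : Type u} [Group G] [Finite G]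

/-- real elements lift modulo a normal subgroup of odd order -/
theorem lift_real (M : Subgroup G) [M.Normal] (hM : Odd (Nat.card M)) (x : G)
    (hx : IsConj (x : G ⧸ M) (x : G ⧸ M)⁻¹) :
    ∃ y : G, (y : G ⧸ M) = (x : G ⧸ M) ∧ IsConj y y⁻¹ := by
  classical
  obtain ⟨t, ht⟩ := isConj_iff.1 hx
  obtain ⟨g₀, rfl⟩ := QuotientGroup.mk_surjective t
  -- a 2-element
  obtain ⟨g, i, hg, hgt⟩ : ∃ (g : G) (i : ℕ), g ^ 2 ^ i = 1 ∧
      (g : G ⧸ M) * (x : G ⧸ M) * (g : G ⧸ M)⁻¹ = (x : G ⧸ M)⁻¹ := by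
    obtain ⟨n, m, hm, hx⟩ := Nat.exists_eq_pow_mul_and_not_dvd (orderOf_pos g₀).ne' 2 (by norm_num)
    have hodd : Odd m := by rw [← Nat.not_even_iff_odd, even_iff_two_dvd]; exact hm
    refine ⟨g₀ ^ m, n, ?_, ?_⟩
    · rw [← pow_mul]
      have : m * 2 ^ n = orderOf g₀ := by rw [hx]; ring
      rw [this, pow_orderOf_eq_one]
    · exact CfsgLib.Real4.conj_pow_odd ht m hodd
  have hconj : ∀ y : G, (y : G ⧸ M) = (x : G ⧸ M) → (((g * y * g⁻¹)⁻¹ : G) : G ⧸ M) = (x : G ⧸ M) := by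
    intro y hy
    have : (((g * y * g⁻¹)⁻¹ : G) : G ⧸ M) = ((g : G ⧸ M) * y * (g : G ⧸ M)⁻¹)⁻¹ := rfl
    rw [this, hy, hgt, inv_inv]
  have hconj' : ∀ y : G, (y : G ⧸ M) = (x : G ⧸ M) → ((g⁻¹ * y⁻¹ * g : G) : G ⧸ M) = (x : G ⧸ M) := by
    intro y hy
    have : ((g⁻¹ * y⁻¹ * g : G) : G ⧸ M) = (g : G ⧸ M)⁻¹ * (y : G ⧸ M)⁻¹ * (g : G ⧸ M) := rfl
    rw [this, hy, ← hgt]
    group
  let σ : Equiv.Perm {y : G // (y : G ⧸ M) = (x : G ⧸ M)} :=
    { toFun := fun y => ⟨(g * y.1 * g⁻¹)⁻¹, hconj y.1 y.2⟩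
      invFun := fun y => ⟨g⁻¹ * y.1⁻¹ * g, hconj' y.1 y.2⟩
      left_inv := fun y => by apply Subtype.ext; simp; group
      right_inv := fun y => by apply Subtype.ext; simp; group }
  have hσ : ∀ (k : ℕ) (y : {y : G // (y : G ⧸ M) = (x : G ⧸ M)}),
      ((σ ^ (2 * k)) y).1 = g ^ (2 * k) * y.1 * (g ^ (2 * k))⁻¹ := by
    intro k
    induction k with
    | zero => intro y; simp
    | succ k ih =>
      intro y
      have e1 : σ ^ (2 * (k + 1)) = σ ^ (2 * k) * (σ * σ) := by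
        rw [mul_add, pow_add]; rfl
      rw [e1, Equiv.Perm.mul_apply, ih]
      have e2 : ((σ * σ) y).1 = g * (g * y.1 * g⁻¹) * g⁻¹ := by
        change (g * (g * y.1 * g⁻¹)⁻¹ * g⁻¹)⁻¹ = _
        simp only [mul_inv_rev, inv_inv, mul_assoc]
      have e3 : g ^ (2 * (k + 1)) = g ^ (2 * k) * (g * g) := by
        rw [mul_add, pow_add, mul_one, pow_two]
      rw [e2, e3]
      simp only [mul_inv_rev, mul_assoc]
  have hσ2 : σ ^ 2 ^ (i + 1) = 1 := by
    ext y
    rw [pow_succ' 2 i, hσ, pow_mul' g, hg]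
    simp
  haveI : Fintype {y : G // (y : G ⧸ M) = (x : G ⧸ M)} := Fintype.ofFinite _
  have hcard : ¬ 2 ∣ Fintype.card {y : G // (y : G ⧸ M) = (x : G ⧸ M)} := by
    have : Nat.card {y : G // (y : G ⧸ M) = (x : G ⧸ M)} = Nat.card M := by
      symm
      refine Nat.card_congr
        { toFun := fun m => ⟨x * m, QuotientGroup.mk_mul_of_mem x m.2⟩
          invFun := fun y => ⟨x⁻¹ * y.1, by
            rw [← QuotientGroup.eq]; exact y.2.symm⟩
          left_inv := fun m => by apply Subtype.ext; simp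
          right_inv := fun y => by apply Subtype.ext; simp }
    rw [← Nat.card_eq_fintype_card, this]
    intro h
    rw [← even_iff_two_dvd, ← Nat.not_odd_iff_even] at h
    exact h hM
  haveI : Fact (Nat.Prime 2) := ⟨Nat.prime_two⟩
  obtain ⟨y, hy⟩ := Equiv.Perm.exists_fixed_point_of_prime hcard hσ2
  refine ⟨y.1, y.2, ?_⟩
  have h1 : (g * y.1 * g⁻¹)⁻¹ = y.1 := congrArg Subtype.val hy
  rw [isConj_iff]
  exact ⟨g, by rw [← h1, inv_inv, h1]⟩

/-- a real element in an odd normal subgroup is detected by a real character -/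
theorem exists_real (M : Subgroup G) [M.Normal] (hM : Odd (Nat.card M)) (m : G) (hm : m ∈ M)
    (hm1 : m ≠ 1) (hreal : IsConj m m⁻¹) :
    ∃ χ : IrrCharacter G, (∀ g : G, ((χ : G → ℂ) g).im = 0) ∧
      ∃ x ∈ M, (χ : G → ℂ) x ≠ (χ : G → ℂ) 1 := by
  classical
  by_contra hcon
  push Not at hcon
  have h1 : Nat.card {χ : IrrCharacter G // ∀ g : G, ((χ : G → ℂ) g).im = 0} ≤
      Nat.card {χ : IrrCharacter (G ⧸ M) // ∀ g : G ⧸ M, ((χ : G ⧸ M → ℂ) g).im = 0} := by
    choose f hf1 hf2 using fun (χ : {χ : IrrCharacter G // ∀ g : G, ((χ : G → ℂ) g).im = 0}) =>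
      CfsgLib.Quot19.irr_deflate M χ.1.2 (hcon χ.1 χ.2)
    haveI : Finite {χ : IrrCharacter (G ⧸ M) // ∀ g : G ⧸ M, ((χ : G ⧸ M → ℂ) g).im = 0} :=
      inferInstance
    refine Nat.card_le_card_of_injective (fun χ => ⟨⟨f χ, hf1 χ⟩, ?_⟩) ?_
    · intro g
      obtain ⟨g, rfl⟩ := QuotientGroup.mk_surjective g
      change (f χ (g : G ⧸ M)).im = 0
      rw [hf2]
      exact χ.2 g
    · intro χ χ' h
      have h2 : f χ = f χ' := congrArg (fun z => (z.1 : G ⧸ M → ℂ)) h
      apply Subtype.ext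
      apply Subtype.ext
      ext g
      rw [← hf2 χ g, ← hf2 χ' g, h2]
  rw [CfsgLib.GalChar.card_real_irr, CfsgLib.GalChar.card_real_irr] at h1
  -- lifting classes
  have h2 : ∀ c : {c : ConjClasses (G ⧸ M) // ∀ g : G ⧸ M, ConjClasses.mk g = c → IsConj g g⁻¹},
      ∃ y : G, IsConj y y⁻¹ ∧ ConjClasses.mk (y : G ⧸ M) = c.1 ∧
        (c.1 = ConjClasses.mk 1 → y = 1) := by
    intro c
    by_cases hc : c.1 = ConjClasses.mk 1
    · exact ⟨1, by rw [inv_one], by rw [hc]; rfl, fun _ => rfl⟩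
    · obtain ⟨x, hx⟩ := ConjClasses.mk_surjective c.1
      obtain ⟨x, rfl⟩ := QuotientGroup.mk_surjective x
      obtain ⟨y, hy1, hy2⟩ := lift_real M hM x (c.2 _ hx)
      exact ⟨y, hy2, by rw [hy1]; exact hx, fun h => absurd h hc⟩
  choose F hF1 hF2 hF3 using h2
  have h3 : Nat.card (Option {c : ConjClasses (G ⧸ M) //
      ∀ g : G ⧸ M, ConjClasses.mk g = c → IsConj g g⁻¹}) ≤
      Nat.card {c : ConjClasses G // ∀ g : G, ConjClasses.mk g = c → IsConj g g⁻¹} := by
    have hrc : ∀ y : G, IsConj y y⁻¹ → ∀ g : G, ConjClasses.mk g = ConjClasses.mk y →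
        IsConj g g⁻¹ := by
      intro y hy g hg
      rw [ConjClasses.mk_eq_mk_iff_isConj] at hg
      refine hg.trans (hy.trans ?_)
      obtain ⟨c, hc⟩ := isConj_iff.1 hg.symm
      exact isConj_iff.2 ⟨c, by rw [← hc]; group⟩
    refine Nat.card_le_card_of_injective (fun o => match o with
      | none => ⟨ConjClasses.mk m, hrc m hreal⟩
      | some c => ⟨ConjClasses.mk (F c), hrc _ (hF1 c)⟩) ?_
    have hnone : ∀ c, ConjClasses.mk m ≠ ConjClasses.mk (F c) := by
      intro c h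
      rw [ConjClasses.mk_eq_mk_iff_isConj] at h
      have h4 : ((F c : G) : G ⧸ M) = 1 := by
        have h5 : IsConj (m : G ⧸ M) ((F c : G) : G ⧸ M) := by
          obtain ⟨d, hd⟩ := isConj_iff.1 h
          exact isConj_iff.2 ⟨(d : G ⧸ M), by rw [← hd]; rfl⟩
        have h6 : (m : G ⧸ M) = 1 := (QuotientGroup.eq_one_iff m).2 hm
        rw [h6] at h5
        exact (isConj_one_right.1 h5.symm.symm).symm.symm
      have h5 : c.1 = ConjClasses.mk 1 := by rw [← hF2, h4]
      have h6 := hF3 c h5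
      rw [h6] at h
      exact hm1 (isConj_one_left.1 h)
    intro o o' h
    match o, o' with
    | none, none => rfl
    | none, some c => exact absurd (congrArg Subtype.val h) (hnone c)
    | some c, none => exact absurd (congrArg Subtype.val h).symm (hnone c)
    | some c, some c' =>
      have h4 : ConjClasses.mk (F c) = ConjClasses.mk (F c') := congrArg Subtype.val h
      rw [ConjClasses.mk_eq_mk_iff_isConj] at h4
      congr 1
      apply Subtype.ext
      rw [← hF2, ← hF2, ConjClasses.mk_eq_mk_iff_isConj]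
      obtain ⟨d, hd⟩ := isConj_iff.1 h4
      exact isConj_iff.2 ⟨(d : G ⧸ M), by rw [← hd]; rfl⟩
  rw [Finite.card_option] at h3
  omega

/-- characters nontrivial on a normal subgroup inside `P'` have degree divisible by `p` -/
theorem dvd_degree (p : ℕ) [Fact p.Prime] (P : Subgroup G) (hP : IsPGroup p P) (M : Subgroup G)
    [M.Normal] (hMP : M ≤ ⁅P, P⁆) {χ : G → ℂ} (hχ : IsIrrCharacter G χ)
    (hne : ∃ x ∈ M, χ x ≠ χ 1) : p ∣ charDegree χ := by
  classical
  haveI : Fintype G := Fintype.ofFinite G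
  haveI : Fintype P := Fintype.ofFinite P
  haveI : Fintype M := Fintype.ofFinite M
  obtain ⟨k, hk⟩ := hP.exists_card_eq
  have hPP : ⁅P, P⁆ ≤ P := by
    rw [Subgroup.commutator_le]
    intro a ha b hb
    exact P.mul_mem (P.mul_mem (P.mul_mem ha hb) (P.inv_mem ha)) (P.inv_mem hb)
  have hMleP : M ≤ P := hMP.trans hPP
  obtain ⟨m, hm, hexp, -⟩ := char_expand (isCharacter_restrict (irr_isCharacter hχ) P)
  have h1 : ∀ ψ : IrrCharacter P, p ∣ m ψ * charDegree (ψ : P → ℂ) := by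
    intro ψ
    by_cases hlin : (ψ : P → ℂ) 1 = 1
    · have hm0 : (m ψ : ℂ) = 0 := by
        rw [← hm ψ]
        obtain ⟨f, hf⟩ := exists_hom_of_linear (irr_isCharacter ψ.2) hlin
        have hcomm : ⁅P, P⁆ ≤ (f.ker).map P.subtype := by
          rw [Subgroup.commutator_le]
          intro a ha b hb
          refine ⟨⁅(⟨a, ha⟩ : P), ⟨b, hb⟩⁆, ?_, rfl⟩
          change f _ = 1
          rw [map_commutatorElement]
          exact commutatorElement_eq_one_iff_mul_comm.2 (mul_comm _ _)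
        have hfM : ∀ (n : M) (x : P), f (⟨n, hMleP n.2⟩ * x) = f x := by
          intro n x
          rw [map_mul]
          have : f ⟨n, hMleP n.2⟩ = 1 := by
            obtain ⟨y, hy, hy2⟩ := hcomm (hMP n.2)
            have e : (⟨n, hMleP n.2⟩ : P) = y := Subtype.ext hy2.symm
            rw [e]
            exact hy
          rw [this, one_mul]
        unfold classInner
        have hMc : (Nat.card M : ℂ) ≠ 0 := by exact_mod_cast Nat.card_pos.ne'
        have e1 : ∀ n : M, ∑ x : P, χ (n * x) * conj ((ψ : P → ℂ) x) =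
            ∑ x : P, χ x * conj ((ψ : P → ℂ) x) := by
          intro n
          refine Fintype.sum_equiv (Equiv.mulLeft (⟨n, hMleP n.2⟩ : P)) _ _ fun x => ?_
          rw [Equiv.coe_mulLeft, hf, hf, hfM]
          rfl
        have e2 : ∑ n : M, ∑ x : P, χ (n * x) * conj ((ψ : P → ℂ) x) =
            Nat.card M * ∑ x : P, χ x * conj ((ψ : P → ℂ) x) := by
          rw [Finset.sum_congr rfl fun n _ => e1 n, Finset.sum_const, nsmul_eq_mul,
            Finset.card_univ, ← Nat.card_eq_fintype_card]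
        have e3 : ∑ n : M, ∑ x : P, χ (n * x) * conj ((ψ : P → ℂ) x) = 0 := by
          rw [Finset.sum_comm]
          apply Finset.sum_eq_zero
          intro x _
          rw [← Finset.sum_mul]
          have h4 := GalChar2.avg_irr M hχ (x : G)
          rw [if_neg (by push Not; exact hne)] at h4
          rcases mul_eq_zero.mp h4 with h5 | h5
          · exact absurd (inv_eq_zero.mp h5) hMc
          · rw [h5, zero_mul]
        rw [e3] at e2
        rcases mul_eq_zero.1 e2.symm with h5 | h5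
        · exact absurd h5 hMc
        · rw [h5, mul_zero]
      have : m ψ = 0 := by exact_mod_cast hm0
      rw [this, zero_mul]
      exact dvd_zero _
    · apply Dvd.dvd.mul_left
      have h2 := CfsgLib.CharInt2.charDegree_dvd_card ψ.2
      rw [hk, Nat.dvd_prime_pow (Fact.out)] at h2
      obtain ⟨i, hi, hi2⟩ := h2
      rw [hi2]
      rcases Nat.eq_zero_or_pos i with h0 | h0
      · exfalso
        apply hlin
        rw [CfsgLib.CharInt.irr_one_eq_charDegree ψ.2, hi2, h0]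
        simp
      · exact dvd_pow_self p h0.ne'
  have h2 : charDegree χ = ∑ ψ : IrrCharacter P, m ψ * charDegree (ψ : P → ℂ) := by
    have h3 := congrFun hexp 1
    simp only [Finset.sum_apply, Pi.smul_apply, smul_eq_mul, OneMemClass.coe_one] at h3
    rw [CfsgLib.CharInt.irr_one_eq_charDegree hχ] at h3
    have h4 : ∀ ψ : IrrCharacter P, (m ψ : ℂ) * (ψ : P → ℂ) 1 = ((m ψ * charDegree (ψ : P → ℂ) : ℕ) : ℂ) := by
      intro ψ
      rw [CfsgLib.CharInt.irr_one_eq_charDegree ψ.2]; push_cast; ring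
    rw [Finset.sum_congr rfl fun ψ _ => h4 ψ, ← Nat.cast_sum] at h3
    exact_mod_cast h3
  rw [h2]
  exact Finset.dvd_sum fun ψ _ => h1 ψ

/-- the induction step: an element whose square centralizes -/
theorem step (p : ℕ) [Fact p.Prime] (hp : p ≠ 2)
    (hreal : ∀ χ : Cfsg.IrrCharacter G, (∀ g : G, ((χ : G → ℂ) g).im = 0) →
      ¬ p ∣ Cfsg.charDegree (χ : G → ℂ)) (P : Subgroup G) (hP : IsPGroup p P) (M : Subgroup G)
    [hM : M.Normal] (hMP : M ≤ ⁅P, P⁆) (hodd : Odd (Nat.card M)) (t : G)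
    (ht2 : ∀ y ∈ M, y * t ^ 2 = t ^ 2 * y) : ∀ y ∈ M, y * t = t * y := by
  by_contra htn
  push Not at htn
  obtain ⟨y, hy, hyt⟩ := htn
  obtain ⟨m, hm⟩ : ∃ m, m = y⁻¹ * (t * y * t⁻¹) := ⟨_, rfl⟩
  have hmM : m ∈ M := by
    rw [hm]
    exact M.mul_mem (M.inv_mem hy) (hM.conj_mem y hy t)
  have hm1 : m ≠ 1 := by
    intro h
    apply hyt
    rw [hm, inv_mul_eq_one] at h
    nth_rewrite 1 [h]
    group
  have hmr : t * m * t⁻¹ = m⁻¹ := by
    have e1 : t * m * t⁻¹ = (t * y * t⁻¹)⁻¹ * (t ^ 2 * y * (t ^ 2)⁻¹) := by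
      rw [hm, pow_two]; group
    rw [e1, ← ht2 y hy, hm]
    group
  obtain ⟨χ, hχ1, hχ2⟩ := exists_real M hodd m hmM hm1 (isConj_iff.2 ⟨t, hmr⟩)
  exact hreal χ hχ1 (dvd_degree p P hP M hMP χ.2 hχ2)

theorem s4862 (p : ℕ) [Fact p.Prime] (hp : p ≠ 2)
    (hreal : ∀ χ : Cfsg.IrrCharacter G, (∀ g : G, ((χ : G → ℂ) g).im = 0) →
      ¬ p ∣ Cfsg.charDegree (χ : G → ℂ)) (P : Sylow p G) (M : Subgroup G) (hM : M.Normal)
    (hMP : M ≤ ⁅(P : Subgroup G), (P : Subgroup G)⁆) :
    (Subgroup.closure {g : G | ∃ k : ℕ, orderOf g = 2 ^ k}) ≤ Subgroup.centralizer (M : Set G) := by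
  have hPP : ⁅(P : Subgroup G), (P : Subgroup G)⁆ ≤ (P : Subgroup G) := by
    rw [Subgroup.commutator_le]
    intro a ha b hb
    exact mul_mem (mul_mem (mul_mem ha hb) (inv_mem ha)) (inv_mem hb)
  have hMp : IsPGroup p M := P.2.to_le (hMP.trans hPP)
  have hodd : Odd (Nat.card M) := by
    obtain ⟨k, hk⟩ := hMp.exists_card_eq
    rw [hk]
    exact (Nat.Prime.odd_of_ne_two Fact.out hp).pow
  have key : ∀ k : ℕ, ∀ t : G, orderOf t = 2 ^ k → ∀ y ∈ M, y * t = t * y := by
    intro k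
    induction k with
    | zero =>
      intro t ht
      rw [pow_zero, orderOf_eq_one_iff] at ht
      intro y hy
      rw [ht, mul_one, one_mul]
    | succ k ih =>
      intro t ht
      refine step p hp hreal P P.2 M hMP hodd t (ih (t ^ 2) ?_)
      rw [orderOf_pow, ht, pow_succ', Nat.gcd_eq_right (Dvd.intro _ rfl),
        Nat.mul_div_cancel_left _ two_pos]
  rw [Subgroup.closure_le]
  rintro t ⟨k, hk⟩
  rw [SetLike.mem_coe, Subgroup.mem_centralizer_iff]
  exact key k t hk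

end lift

end CfsgLib.RealDeg4
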