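import Cfsg.Agent.LibRealDeg4
import Cfsg.Agent.LibSolvMin
import Cfsg.Agent.LibCharBasic3

set_option autoImplicit false
set_option linter.all false

/-! Real characters of `p'`-degree, II. -/

open scoped ComplexConjugate commutatorElement
open Cfsg CfsgLib.CharBasic CfsgLib.CharIndA CfsgLib.Clifford

namespace CfsgLib.RealDeg4b

universe u

section Z
variable {G : Type u} [Group G] [Finite G]

/-- a real character induced from an inertia group over a split abelian normal subgroup -/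
theorem real_ind (N H : Subgroup G) [hN : N.Normal] (hNc : ∀ a ∈ N, ∀ b ∈ N, a * b = b * a)
    (hd : N ⊓ H = ⊥) (ht : N ⊔ H = ⊤) (lam : N →* ℂˣ) (T : Subgroup G)
    (hT : ∀ g, g ∈ T ↔ ∀ n : N, lam ⟨g * n * g⁻¹, hN.conj_mem n n.2 g⟩ = lam n)
    (h : G) (hh : h ∈ H) (hinv : ∀ n : N, lam ⟨h * n * h⁻¹, hN.conj_mem n n.2 h⟩ = (lam n)⁻¹) :
    ∃ χ : IrrCharacter G, (∀ g, ((χ : G → ℂ) g).im = 0) ∧ charDegree (χ : G → ℂ) = T.index := by
  classical
  haveI : Fintype G := Fintype.ofFinite G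
  haveI : Fintype N := Fintype.ofFinite N
  haveI : Fintype T := Fintype.ofFinite T
  have hdec : ∀ g : G, ∃ a ∈ N, ∃ b ∈ H, a * b = g := by
    intro g
    have hg : g ∈ N ⊔ H := by rw [ht]; trivial
    rwa [Subgroup.mem_sup_of_normal_left] at hg
  choose ν hν η hη hνη using hdec
  have huniq : ∀ a ∈ N, ∀ b ∈ H, ν (a * b) = a := by
    intro a ha b hb
    have h2 : a⁻¹ * ν (a * b) = b * (η (a * b))⁻¹ := by
      have h1 : ν (a * b) * η (a * b) = a * b := hνη _
      generalize ν (a * b) = c at h1 ⊢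
      generalize η (a * b) = d at h1 ⊢
      rw [inv_mul_eq_iff_eq_mul, ← mul_assoc, ← h1]; group
    have h3 : a⁻¹ * ν (a * b) ∈ N ⊓ H :=
      ⟨N.mul_mem (N.inv_mem ha) (hν _), by rw [h2]; exact H.mul_mem hb (H.inv_mem (hη _))⟩
    rw [hd, Subgroup.mem_bot, inv_mul_eq_one] at h3
    exact h3.symm
  have hνmul : ∀ g g' : G, ν (g * g') = ν g * (g * ν g' * g⁻¹) := by
    intro g g'
    have e1 : g * g' = (ν g * (η g * ν g' * (η g)⁻¹)) * (η g * η g') := by
      nth_rewrite 1 [← hνη g]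
      nth_rewrite 1 [← hνη g']
      group
    have hc : η g * ν g' * (η g)⁻¹ ∈ N := hN.conj_mem _ (hν g') _
    have e2 : g * ν g' * g⁻¹ = η g * ν g' * (η g)⁻¹ := by
      have e3 : g * ν g' * g⁻¹ = ν g * (η g * ν g' * (η g)⁻¹) * (ν g)⁻¹ := by
        nth_rewrite 1 [← hνη g]
        nth_rewrite 3 [← hνη g]
        group
      rw [e3, hNc _ (hν g) _ hc]
      group
    rw [e1, huniq _ (N.mul_mem (hν g) hc) _ (H.mul_mem (hη _) (hη _)), e2]
  have hνN : ∀ n ∈ N, ν n = n := by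
    intro n hn
    have := huniq n hn 1 H.one_mem
    rwa [mul_one] at this
  let L : T →* ℂˣ :=
    { toFun := fun g => lam ⟨ν g, hν g⟩
      map_one' := by
        have : (⟨ν ((1 : T) : G), hν _⟩ : N) = 1 := Subtype.ext (hνN 1 N.one_mem)
        rw [this, map_one]
      map_mul' := by
        intro a b
        have : (⟨ν ((a * b : T) : G), hν _⟩ : N) = ⟨ν (a : G), hν _⟩ *
            ⟨(a : G) * ν (b : G) * (a : G)⁻¹, hN.conj_mem _ (hν _) _⟩ :=
          Subtype.ext (hνmul a b)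
        rw [this, map_mul]
        congr 1
        exact (hT a).1 a.2 ⟨ν (b : G), hν _⟩ }
  have hLdef : ∀ g : T, L g = lam ⟨ν g, hν g⟩ := fun g => rfl
  have hNT : N ≤ T := by
    intro a ha
    rw [hT]
    intro n
    congr 1
    apply Subtype.ext
    change a * n * a⁻¹ = n
    rw [hNc a ha n n.2]; group
  have hθ : IsIrrCharacter N (fun n => (lam n : ℂ)) := isIrrCharacter_hom lam
  have hψ : IsIrrCharacter T (fun g => (L g : ℂ)) := isIrrCharacter_hom L
  have hTin : ∀ g, g ∈ T ↔ cj hN g (fun n : N => (lam n : ℂ)) = fun n : N => (lam n : ℂ) := by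
    intro g
    rw [hT]
    constructor
    · intro h1
      ext n
      rw [cj_apply, h1]
    · intro h1 n
      have := congrFun h1 n
      rw [cj_apply] at this
      exact Units.ext this
  have hres : resT hNT (fun g => (L g : ℂ)) = fun n : N => (lam n : ℂ) := by
    ext n
    change ((L ⟨(n : G), hNT n.2⟩ : ℂˣ) : ℂ) = (lam n : ℂ)
    rw [hLdef]
    congr 2
    exact Subtype.ext (hνN n n.2)
  obtain ⟨hirr, -⟩ := clifford_corr hN hNT hθ hTin hψ (by
    rw [hres, irr_inner_self hθ]; exact one_ne_zero)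
  have hdeg : indFun T (fun g => (L g : ℂ)) 1 = (T.index : ℂ) := by
    rw [ind_one]
    simp
  -- conjugation by h
  have hTh : ∀ y, y ∈ T → h * y * h⁻¹ ∈ T := by
    intro y hy
    rw [hT] at hy ⊢
    intro n
    obtain ⟨n', hn'⟩ : ∃ n' : N, (n : G) = h * n' * h⁻¹ :=
      ⟨⟨h⁻¹ * n * h, by
        have := hN.conj_mem n n.2 h⁻¹
        rwa [inv_inv] at this⟩, by simp only; group⟩
    have e1 : (⟨h * y * h⁻¹ * n * (h * y * h⁻¹)⁻¹, hN.conj_mem n n.2 _⟩ : N) =
        ⟨h * (⟨y * n' * y⁻¹, hN.conj_mem n' n'.2 y⟩ : N) * h⁻¹,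
          hN.conj_mem _ (hN.conj_mem n' n'.2 y) h⟩ := by
      apply Subtype.ext
      simp only
      rw [hn']; group
    have e2 : n = ⟨h * n' * h⁻¹, hN.conj_mem n' n'.2 h⟩ := Subtype.ext hn'
    rw [e1, hinv, hy n', e2, hinv]
  have hTh' : ∀ y, h * y * h⁻¹ ∈ T → y ∈ T := by
    intro y hy
    rw [hT] at hy ⊢
    intro n
    have e1 : lam ⟨h * y * h⁻¹ * (⟨h * n * h⁻¹, hN.conj_mem n n.2 h⟩ : N) * (h * y * h⁻¹)⁻¹,
        hN.conj_mem _ (hN.conj_mem n n.2 h) _⟩ = lam ⟨h * n * h⁻¹, hN.conj_mem n n.2 h⟩ := hy _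
    have e2 : (⟨h * y * h⁻¹ * (⟨h * n * h⁻¹, hN.conj_mem n n.2 h⟩ : N) * (h * y * h⁻¹)⁻¹,
        hN.conj_mem _ (hN.conj_mem n n.2 h) _⟩ : N) =
        ⟨h * (⟨y * n * y⁻¹, hN.conj_mem n n.2 y⟩ : N) * h⁻¹,
          hN.conj_mem _ (hN.conj_mem n n.2 y) h⟩ := by
      apply Subtype.ext
      simp only
      group
    rw [e2, hinv, hinv] at e1
    exact inv_injective e1
  have hext : ∀ y : G, extendByZero T (fun g => (L g : ℂ)) (h * y * h⁻¹) =
      conj (extendByZero T (fun g => (L g : ℂ)) y) := by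
    intro y
    by_cases hy : y ∈ T
    · rw [ext_mem T _ hy, ext_mem T _ (hTh y hy)]
      rw [← char_inv_eq_conj (isCharacter_hom L) ⟨y, hy⟩, map_inv, hLdef, hLdef]
      have e1 : (⟨ν (h * y * h⁻¹), hν _⟩ : N) = ⟨h * ν y * h⁻¹, hN.conj_mem _ (hν _) h⟩ := by
        apply Subtype.ext
        have e2 : h * y * h⁻¹ = (h * ν y * h⁻¹) * (h * η y * h⁻¹) := by
          nth_rewrite 1 [← hνη y]; group
        change ν (h * y * h⁻¹) = h * ν y * h⁻¹
        rw [e2, huniq _ (hN.conj_mem _ (hν _) h) _ (H.mul_mem (H.mul_mem hh (hη _)) (H.inv_mem hh))]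
      rw [e1]
      congr 1
      exact hinv ⟨ν y, hν y⟩
    · rw [ext_not_mem T _ hy, ext_not_mem T _ (fun h1 => hy (hTh' y h1)), map_zero]
  refine ⟨⟨_, hirr⟩, ?_, ?_⟩
  · intro g
    rw [← Complex.conj_eq_iff_im]
    change conj (indFun T (fun g => (L g : ℂ)) g) = indFun T (fun g => (L g : ℂ)) g
    rw [ind_apply, map_mul, map_sum, map_inv₀, Complex.conj_natCast]
    congr 1
    refine Fintype.sum_equiv (Equiv.mulRight h⁻¹) _ _ fun x => ?_
    rw [← hext, Equiv.coe_mulRight]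
    congr 1
    group
  · have h1 := CfsgLib.CharInt.irr_one_eq_charDegree hirr
    rw [hdeg] at h1
    exact_mod_cast h1.symm

/-- an invariant linear character is trivial when there are no fixed points -/
theorem lam_trivial {p : ℕ} (N P : Subgroup G) [hN : N.Normal]
    (hNc : ∀ a ∈ N, ∀ b ∈ N, a * b = b * a) (hcop : (Nat.card N).Coprime (Nat.card P))
    (hfix : ∀ n ∈ N, (∀ x ∈ P, x * n * x⁻¹ = n) → n = 1) (lam : N →* ℂˣ)
    (hinv : ∀ x ∈ P, ∀ n : N, lam ⟨x * n * x⁻¹, hN.conj_mem n n.2 x⟩ = lam n) (n : N) :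
    lam n = 1 := by
  classical
  haveI : Fintype P := Fintype.ofFinite P
  letI : CommGroup N := { (inferInstance : Group N) with
    mul_comm := fun a b => Subtype.ext (hNc a a.2 b b.2) }
  have hprod : ∏ x : P, (MulAut.conjNormal (x : G) n) = 1 := by
    apply Subtype.ext
    apply hfix _ (SetLike.coe_mem _)
    intro y hy
    have h1 : MulAut.conjNormal y (∏ x : P, (MulAut.conjNormal (x : G) n)) =
        ∏ x : P, (MulAut.conjNormal (x : G) n) := by
      rw [map_prod]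
      refine Fintype.prod_equiv (Equiv.mulLeft (⟨y, hy⟩ : P)) _ _ fun x => ?_
      apply Subtype.ext
      simp [MulAut.conjNormal_apply, mul_assoc]
    have h2 := congrArg Subtype.val h1
    rw [MulAut.conjNormal_apply] at h2
    exact h2
  have h1 : lam n ^ Nat.card P = 1 := by
    have h2 := congrArg lam hprod
    rw [map_one, map_prod] at h2
    have h3 : ∀ x : P, lam (MulAut.conjNormal (x : G) n) = lam n := by
      intro x
      rw [← hinv x x.2 n]
      congr 1
    rw [Finset.prod_congr rfl fun x _ => h3 x, Finset.prod_const, Finset.card_univ,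
      ← Nat.card_eq_fintype_card] at h2
    exact h2
  have h2 : lam n ^ Nat.card N = 1 := by
    rw [← map_pow, pow_card_eq_one', map_one]
  have h3 := pow_gcd_eq_one.2 ⟨h2, h1⟩
  rw [hcop] at h3
  rwa [pow_one] at h3

end Z

end CfsgLib.RealDeg4b
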