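import Cfsg.Agent.LibRealDeg4b

set_option autoImplicit false
set_option linter.all false

/-! Real characters of `p'`-degree, III. -/

open scoped ComplexConjugate commutatorElement
open Cfsg CfsgLib.CharBasic CfsgLib.CharIndA CfsgLib.Clifford CfsgLib.RealDeg4b

namespace CfsgLib.RealDeg4c

universe u

section A
variable {p : ℕ} [hp : Fact p.Prime] {G : Type u} [Group G] [Finite G]

theorem contra (hreal : ∀ χ : IrrCharacter G, (∀ g : G, ((χ : G → ℂ) g).im = 0) →
      ¬ p ∣ charDegree (χ : G → ℂ)) (N P : Subgroup G) [hN : N.Normal]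
    (hNc : ∀ a ∈ N, ∀ b ∈ N, a * b = b * a) (hcop : (Nat.card N).Coprime (Nat.card P))
    (hP : IsPGroup p P) (hd : N ⊓ Subgroup.normalizer (P : Set G) = ⊥)
    (ht : N ⊔ Subgroup.normalizer (P : Set G) = ⊤) (lam : N →* ℂˣ) (hlam : lam ≠ 1)
    (h : G) (hh : h ∈ Subgroup.normalizer (P : Set G))
    (hinv : ∀ n : N, lam ⟨h * n * h⁻¹, hN.conj_mem n n.2 h⟩ = (lam n)⁻¹) : False := by
  classical
  obtain ⟨T, hTdef⟩ : ∃ T, T = inertia hN (fun n : N => (lam n : ℂ)) := ⟨_, rfl⟩
  have hT : ∀ g, g ∈ T ↔ ∀ n : N, lam ⟨g * n * g⁻¹, hN.conj_mem n n.2 g⟩ = lam n := by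
    intro g
    rw [hTdef, mem_inertia]
    constructor
    · intro h1 n
      have := congrFun h1 n
      rw [cj_apply] at this
      exact Units.ext this
    · intro h1
      ext n
      rw [cj_apply, h1]
  have hNT : N ≤ T := by
    intro a ha
    rw [hT]
    intro n
    congr 1
    apply Subtype.ext
    change a * n * a⁻¹ = n
    rw [hNc a ha n n.2]; group
  obtain ⟨χ, hχ1, hχ2⟩ := real_ind N _ hNc hd ht lam T hT h hh hinv
  have hidx : ¬ p ∣ Nat.card (G ⧸ T) := by
    rw [← Subgroup.index_eq_card, ← hχ2]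
    exact hreal χ hχ1
  obtain ⟨q, hq⟩ := hP.nonempty_fixed_point_of_prime_not_dvd_card (G ⧸ T) hidx
  obtain ⟨g, rfl⟩ := QuotientGroup.mk_surjective q
  have hfixg : ∀ x ∈ P, g⁻¹ * x * g ∈ T := by
    intro x hx
    have h1 : (⟨x, hx⟩ : P) • (g : G ⧸ T) = (g : G ⧸ T) := hq ⟨x, hx⟩
    have h2 : ((x * g : G) : G ⧸ T) = (g : G ⧸ T) := h1
    rw [QuotientGroup.eq] at h2
    have h3 := T.inv_mem h2
    have h4 : ((x * g)⁻¹ * g)⁻¹ = g⁻¹ * x * g := by group
    rwa [h4] at h3
  have hPT : P ≤ T := by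
    intro y hy
    have hg : g⁻¹ ∈ N ⊔ Subgroup.normalizer (P : Set G) := by rw [ht]; trivial
    rw [Subgroup.mem_sup_of_normal_left] at hg
    obtain ⟨n₁, hn₁, h₁, hh₁, hg⟩ := hg
    have hx : h₁⁻¹ * y * h₁ ∈ P := by
      have := (Subgroup.mem_normalizer_iff.1 (Subgroup.inv_mem _ hh₁) y).1 hy
      rwa [inv_inv] at this
    have h1 := hfixg _ hx
    have h2 : g⁻¹ * (h₁⁻¹ * y * h₁) * g = n₁ * y * n₁⁻¹ := by
      have hg' : g = (n₁ * h₁)⁻¹ := by rw [hg, inv_inv]
      rw [hg']; group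
    rw [h2] at h1
    have h3 := T.mul_mem (T.mul_mem (T.inv_mem (hNT hn₁)) h1) (hNT hn₁)
    have h4 : n₁⁻¹ * (n₁ * y * n₁⁻¹) * n₁ = y := by group
    rwa [h4] at h3
  apply hlam
  ext n
  rw [MonoidHom.one_apply]
  congr 1
  refine lam_trivial (p := p) N P hNc hcop ?_ lam (fun x hx n => (hT x).1 (hPT hx) n) n
  intro n hn hfix
  have h1 : n ∈ N ⊓ Subgroup.normalizer (P : Set G) := by
    refine ⟨hn, Subgroup.mem_normalizer_iff.2 ?_⟩
    intro x
    constructor
    · intro hx
      have h2 := hfix x hx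
      have h3 : n * x * n⁻¹ = x := by
        have h4 : x * n = n * x := by
          nth_rewrite 2 [← h2]; group
        rw [← h4]; group
      rwa [h3]
    · intro hx
      have h2 := hfix _ hx
      have h3 : n * x * n⁻¹ = x := by
        have h4 : (n * x * n⁻¹) * n = n * (n * x * n⁻¹) := by
          have h6 := h2
          rwa [mul_inv_eq_iff_eq_mul] at h6
        have h5 : n * x = n * (n * x * n⁻¹) := by
          rw [← h4]; group
        exact (mul_left_cancel h5).symm
      rwa [h3] at hx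
  rw [hd, Subgroup.mem_bot] at h1
  exact h1

theorem exists_lam_two (N : Subgroup G) (hNc : ∀ a ∈ N, ∀ b ∈ N, a * b = b * a) (hne : N ≠ ⊥)
    (h2 : ∀ a ∈ N, a ^ 2 = 1) : ∃ lam : N →* ℂˣ, lam ≠ 1 ∧ ∀ n, lam n = (lam n)⁻¹ := by
  obtain ⟨⟨n, hn⟩, hn1⟩ : ∃ n : N, n ≠ 1 := by
    by_contra hcon
    push Not at hcon
    apply hne
    rw [Subgroup.eq_bot_iff_forall]
    intro x hx
    exact congrArg Subtype.val (hcon ⟨x, hx⟩)
  obtain ⟨f, hf⟩ := exists_hom_ne_one (G := N) (fun a b => Subtype.ext (hNc a a.2 b b.2)) hn1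
  refine ⟨f, ?_, ?_⟩
  · rintro rfl
    exact hf rfl
  · intro m
    rw [eq_inv_iff_mul_eq_one, ← map_mul]
    have : m * m = 1 := Subtype.ext (by
      have := h2 m m.2
      rwa [pow_two] at this)
    rw [this, map_one]

theorem exists_lam_odd (N : Subgroup G) [hN : N.Normal] (hNc : ∀ a ∈ N, ∀ b ∈ N, a * b = b * a)
    (hodd : Odd (Nat.card N)) (h : G) (h2 : ∀ a ∈ N, a * h ^ 2 = h ^ 2 * a) (y : G) (hy : y ∈ N)
    (hyh : y * h ≠ h * y) :
    ∃ lam : N →* ℂˣ, lam ≠ 1 ∧ ∀ n : N, lam ⟨h * n * h⁻¹, hN.conj_mem n n.2 h⟩ = (lam n)⁻¹ := by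
  obtain ⟨m, hm⟩ : ∃ m, m = y⁻¹ * (h * y * h⁻¹) := ⟨_, rfl⟩
  have hmM : m ∈ N := by
    rw [hm]
    exact N.mul_mem (N.inv_mem hy) (hN.conj_mem y hy h)
  have hm1 : (⟨m, hmM⟩ : N) ≠ 1 := by
    intro h1
    have h1 : m = 1 := congrArg Subtype.val h1
    apply hyh
    rw [hm, inv_mul_eq_one] at h1
    nth_rewrite 1 [h1]
    group
  have hmr : h * m * h⁻¹ = m⁻¹ := by
    have e1 : h * m * h⁻¹ = (h * y * h⁻¹)⁻¹ * (h ^ 2 * y * (h ^ 2)⁻¹) := by
      rw [hm, pow_two]; group
    rw [e1, ← h2 y hy, hm]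
    group
  obtain ⟨μ, hμ⟩ := exists_hom_ne_one (G := N) (fun a b => Subtype.ext (hNc a a.2 b b.2)) hm1
  obtain ⟨lam, hlam⟩ : ∃ lam : N →* ℂˣ, lam = μ * (μ.comp (MulAut.conjNormal h).toMonoidHom)⁻¹ :=
    ⟨_, rfl⟩
  have hl : ∀ n : N, lam n = μ n * (μ ⟨h * n * h⁻¹, hN.conj_mem n n.2 h⟩)⁻¹ := by
    intro n
    rw [hlam]
    rfl
  refine ⟨lam, ?_, ?_⟩
  · intro h1
    have e1 : lam ⟨m, hmM⟩ = 1 := by rw [h1]; rfl
    rw [hl] at e1
    have e2 : (⟨h * m * h⁻¹, hN.conj_mem m hmM h⟩ : N) = ⟨m, hmM⟩⁻¹ := Subtype.ext hmr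
    have e3 : μ ⟨m, hmM⟩ * μ ⟨m, hmM⟩ = 1 := by
      have e4 : (μ ⟨h * m * h⁻¹, hN.conj_mem m hmM h⟩)⁻¹ = μ ⟨m, hmM⟩ := by
        rw [e2, map_inv, inv_inv]
      rw [← e1]
      simp only
      rw [e4]
    have e5 : μ ⟨m, hmM⟩ ^ Nat.card N = 1 := by
      rw [← map_pow, pow_card_eq_one', map_one]
    rw [← pow_two] at e3
    have e6 := pow_gcd_eq_one.2 ⟨e3, e5⟩
    rw [Nat.coprime_two_left.2 hodd, pow_one] at e6
    exact hμ e6
  · intro n
    rw [hl, hl, mul_inv, inv_inv]
    have e1 : (⟨h * (⟨h * n * h⁻¹, hN.conj_mem n n.2 h⟩ : N) * h⁻¹,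
        hN.conj_mem _ (hN.conj_mem n n.2 h) h⟩ : N) = n := by
      apply Subtype.ext
      change h * (h * n * h⁻¹) * h⁻¹ = n
      have e2 : h * (h * n * h⁻¹) * h⁻¹ = (h ^ 2 * n) * (h ^ 2)⁻¹ := by rw [pow_two]; group
      rw [e2, ← h2 n n.2]; group
    rw [e1, mul_comm]

end A

theorem mainT (p : ℕ) [hp : Fact p.Prime] (n : ℕ) : ∀ (G : Type u) [Group G] [Finite G],
    Nat.card G = n →
    (∃ L : Subgroup G, L.Normal ∧ Group.IsSolvable L ∧ ¬ p ∣ L.index) →
    (∀ χ : IrrCharacter G, (∀ g : G, ((χ : G → ℂ) g).im = 0) → ¬ p ∣ charDegree (χ : G → ℂ)) →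
    ∀ U : Subgroup G, U.Normal → Odd U.index →
      (∀ V : Subgroup G, V.Normal → V ≤ U → Odd V.index → ∃ a : ℕ, V.relIndex U = p ^ a) →
      ∃ Q : Subgroup G, Q.Normal ∧ IsPGroup p Q ∧ Q ≤ U ∧ ¬ p ∣ Q.relIndex U := by
  induction n using Nat.strong_induction_on with
  | _ n ih =>
  intro G _ _ hn hL hreal U hU hUodd hV
  obtain ⟨L, hLn, hLs, hLi⟩ := hL
  haveI := hU
  haveI := hLn
  -- the quotient step
  have hquot : ∀ R : Subgroup G, ∀ hR : R.Normal, R ≠ ⊥ → R ≤ U →
      ∃ D : Subgroup G, D.Normal ∧ R ≤ D ∧ D ≤ U ∧ IsPGroup p (D.map (QuotientGroup.mk' R)) ∧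
        ¬ p ∣ D.relIndex U := by
    intro R hR hR1 hRU
    have hsurj : Function.Surjective (QuotientGroup.mk' R) := QuotientGroup.mk'_surjective R
    have hlt : Nat.card (G ⧸ R) < n := by
      rw [← hn, ← Subgroup.card_mul_index R, ← Subgroup.index_eq_card]
      have h1 : 1 < Nat.card R := Subgroup.one_lt_card_iff_ne_bot R |>.2 hR1
      have h2 : 0 < R.index := Nat.pos_of_ne_zero Subgroup.index_ne_zero_of_finite
      nlinarith
    have hUc : (U.map (QuotientGroup.mk' R)).comap (QuotientGroup.mk' R) = U := by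
      rw [Subgroup.comap_map_eq, QuotientGroup.ker_mk', sup_eq_left]
      exact hRU
    obtain ⟨Q, hQ1, hQ2, hQ3, hQ4⟩ := ih _ hlt (G ⧸ R) rfl
      ⟨L.map (QuotientGroup.mk' R), hLn.map _ hsurj, by
        haveI := hLs
        exact Group.isSolvable_of_surjective (f := (QuotientGroup.mk' R).subgroupMap L)
          ((QuotientGroup.mk' R).subgroupMap_surjective L), by
        intro h
        apply hLi
        exact h.trans (Subgroup.index_map_dvd L hsurj)⟩
      (by
        intro χ hχ hd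
        have h1 := CfsgLib.Quot19.irr_inflate R χ.2
        refine hreal ⟨_, h1⟩ (fun g => hχ g) ?_
        exact hd)
      (U.map (QuotientGroup.mk' R)) (hU.map _ hsurj)
      (by
        have h1 : ((U.map (QuotientGroup.mk' R)).comap (QuotientGroup.mk' R)).index =
            (U.map (QuotientGroup.mk' R)).index := Subgroup.index_comap_of_surjective _ hsurj
        rw [← h1, hUc]; exact hUodd)
      (by
        intro V hVn hVU hVo
        obtain ⟨a, ha⟩ := hV (V.comap (QuotientGroup.mk' R)) (hVn.comap _)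
          (by
            rw [← hUc]
            exact Subgroup.comap_mono hVU)
          (by rw [Subgroup.index_comap_of_surjective _ hsurj]; exact hVo)
        refine ⟨a, ?_⟩
        rw [Subgroup.relIndex_comap] at ha
        exact ha)
    refine ⟨Q.comap (QuotientGroup.mk' R), hQ1.comap _, ?_, ?_, ?_, ?_⟩
    · intro x hx
      rw [Subgroup.mem_comap]
      have : QuotientGroup.mk' R x = 1 := (QuotientGroup.eq_one_iff x).2 hx
      rw [this]; exact Q.one_mem
    · rw [← hUc]
      exact Subgroup.comap_mono hQ3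
    · rw [Subgroup.map_comap_eq_self_of_surjective hsurj]
      exact hQ2
    · rw [Subgroup.relIndex_comap]
      exact hQ4
  by_cases hpU : p ∣ Nat.card U
  swap
  · refine ⟨⊥, inferInstance, IsPGroup.of_bot, bot_le, ?_⟩
    rw [Subgroup.relIndex_bot_left]
    exact hpU
  by_cases hO : ∃ R : Subgroup G, R.Normal ∧ R ≠ ⊥ ∧ R ≤ U ∧ IsPGroup p R
  · obtain ⟨R, hR, hR1, hRU, hRp⟩ := hO
    obtain ⟨D, hD1, hD2, hD3, hD4, hD5⟩ := hquot R hR hR1 hRU
    refine ⟨D, hD1, ?_, hD3, hD5⟩
    have h1 := hD4.comap_of_ker_isPGroup (QuotientGroup.mk' R) (by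
      rw [QuotientGroup.ker_mk']; exact hRp)
    rw [Subgroup.comap_map_eq, QuotientGroup.ker_mk', sup_eq_left.2 hD2] at h1
    exact h1
  exfalso
  push Not at hO
  -- the minimal normal subgroup
  have hUL : U ⊓ L ≠ ⊥ := by
    intro h
    apply hLi
    have h1 : L.relIndex U = Nat.card U := by
      rw [← Subgroup.inf_relIndex_left, h, Subgroup.relIndex_bot_left]
    have h2 : L.relIndex U ∣ L.index := Subgroup.relIndex_dvd_index_of_normal L U
    rw [h1] at h2
    exact hpU.trans h2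
  obtain ⟨N, hNmin, hNle⟩ := CfsgLib.SolvMin.exists_isMinNormal_le (U ⊓ L) hUL
  haveI hN : N.Normal := hNmin.1
  have hNU : N ≤ U := hNle.trans inf_le_left
  have hNL : N ≤ L := hNle.trans inf_le_right
  haveI : Group.IsSolvable N := by
    haveI := hLs
    exact Group.isSolvable_of_isSolvable_injective (f := Subgroup.inclusion hNL)
      (Subgroup.inclusion_injective hNL)
  haveI hNcm : IsMulCommutative N := hNmin.isMulCommutative
  have hNc : ∀ a ∈ N, ∀ b ∈ N, a * b = b * a := by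
    intro a ha b hb
    exact congrArg Subtype.val (hNcm.is_comm.comm (⟨a, ha⟩ : N) ⟨b, hb⟩)
  obtain ⟨q, hq, hNq⟩ := hNmin.exists_prime
  haveI : Fact q.Prime := ⟨hq⟩
  have hNqp : IsPGroup q N := CfsgLib.SolvMin.isPGroup_of_forall_pow_eq_one hNq
  have hqp : q ≠ p := by
    rintro rfl
    exact hO N hN hNmin.2.1 hNU hNqp
  obtain ⟨D, hD1, hD2, hD3, hD4, hD5⟩ := hquot N hN hNmin.2.1 hNU
  haveI := hD1
  obtain ⟨P₀⟩ : Nonempty (Sylow p D) := inferInstance
  obtain ⟨P, hPdef⟩ : ∃ P, P = (P₀ : Subgroup D).map D.subtype := ⟨_, rfl⟩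
  have hPp : IsPGroup p P := by rw [hPdef]; exact P₀.2.map _
  have hPD : P ≤ D := by rw [hPdef]; exact Subgroup.map_subtype_le _
  have hP1 : P ≠ ⊥ := by
    intro h
    have hpD : p ∣ Nat.card D := by
      have h1 : D.relIndex U * Nat.card D = Nat.card U := by
        have h2 := Subgroup.relIndex_mul_relIndex ⊥ D U bot_le hD3
        rw [Subgroup.relIndex_bot_left, Subgroup.relIndex_bot_left] at h2
        rw [mul_comm]; exact h2
      rw [← h1] at hpU
      exact (hp.out.dvd_mul.1 hpU).resolve_left hD5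
    have h2 : (P₀ : Subgroup D) ≠ ⊥ := P₀.ne_bot_of_dvd_card hpD
    apply h2
    rw [hPdef, Subgroup.map_eq_bot_iff, Subgroup.ker_subtype, le_bot_iff] at h
    exact h
  have hcop : (Nat.card N).Coprime (Nat.card P) := by
    obtain ⟨i, hi⟩ := hNqp.exists_card_eq
    obtain ⟨j, hj⟩ := hPp.exists_card_eq
    rw [hi, hj]
    exact Nat.Coprime.pow _ _ ((Nat.coprime_primes hq hp.out).2 hqp)
  have hDNP : D ≤ N ⊔ P := by
    have hle : N ⊔ P ≤ D := sup_le hD2 hPD
    have h1 : (N ⊔ P).relIndex D ∣ N.relIndex D := Subgroup.relIndex_dvd_of_le_left D le_sup_left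
    have h2 : (N ⊔ P).relIndex D ∣ P.relIndex D := Subgroup.relIndex_dvd_of_le_left D le_sup_right
    have h3 : ∃ i, N.relIndex D = p ^ i := by
      obtain ⟨i, hi⟩ := hD4.exists_card_eq
      refine ⟨i, ?_⟩
      rw [← hi]
      have := Subgroup.relIndex_ker (K := D) (QuotientGroup.mk' N)
      rwa [QuotientGroup.ker_mk'] at this
    have h4 : ¬ p ∣ P.relIndex D := by
      have h5 : P.relIndex D = (P₀ : Subgroup D).index := by
        rw [hPdef, Subgroup.relIndex, Subgroup.subgroupOf,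
          Subgroup.comap_map_eq_self_of_injective D.subtype_injective]
      rw [h5]
      exact P₀.not_dvd_index
    obtain ⟨i, hi⟩ := h3
    rw [hi, Nat.dvd_prime_pow hp.out] at h1
    obtain ⟨j, hj, hj2⟩ := h1
    have hj0 : j = 0 := by
      by_contra hj0
      apply h4
      refine dvd_trans ?_ h2
      rw [hj2]
      exact dvd_pow_self p hj0
    rw [hj0, pow_zero, Subgroup.relIndex_eq_one] at hj2
    exact hj2
  obtain ⟨H, hHdef⟩ : ∃ H, H = Subgroup.normalizer (P : Set G) := ⟨_, rfl⟩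
  have hPH : P ≤ H := by rw [hHdef]; exact Subgroup.le_normalizer
  have ht : N ⊔ H = ⊤ := by
    have h1 : H ⊔ D = ⊤ := by
      rw [hHdef, hPdef]
      exact Sylow.normalizer_sup_eq_top P₀
    rw [eq_top_iff, ← h1]
    exact sup_le le_sup_right (hDNP.trans (sup_le le_sup_left (hPH.trans le_sup_right)))
  have hNHn : (N ⊓ H).Normal := by
    rw [← Subgroup.normalizer_eq_top_iff, eq_top_iff, ← ht]
    refine sup_le ?_ ?_
    · intro a ha
      rw [Subgroup.mem_normalizer_iff]
      intro x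
      constructor
      · intro hx
        have : a * x * a⁻¹ = x := by rw [hNc a ha x hx.1]; group
        rwa [this]
      · intro hx
        have : a * x * a⁻¹ = x := by
          have h2 := hNc a ha _ hx.1
          have h3 : a * (a * x * a⁻¹) * a⁻¹ = a * x * a⁻¹ := by rw [h2]; group
          have h4 := mul_left_cancel (mul_right_cancel h3)
          exact h4
        rwa [this] at hx
    · intro a ha
      rw [Subgroup.mem_normalizer_iff]
      intro x
      constructor
      · intro hx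
        exact ⟨hN.conj_mem x hx.1 a, H.mul_mem (H.mul_mem ha hx.2) (H.inv_mem ha)⟩
      · intro hx
        have h2 := hN.conj_mem _ hx.1 a⁻¹
        have h3 := H.mul_mem (H.mul_mem (H.inv_mem ha) hx.2) ha
        have h4 : a⁻¹ * (a * x * a⁻¹) * a = x := by group
        rw [inv_inv, h4] at h2
        rw [h4] at h3
        exact ⟨h2, h3⟩
  have hd : N ⊓ H = ⊥ := by
    rcases hNmin.2.2 (N ⊓ H) hNHn inf_le_left with h | h
    · exact h
    · exfalso
      have hNH : N ≤ H := inf_eq_left.1 h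
      have hH : H = ⊤ := by rw [← ht, sup_eq_right.2 hNH]
      have hPn : P.Normal := by
        rw [← Subgroup.normalizer_eq_top_iff, ← hHdef, hH]
      exact hO P hPn hP1 (hPD.trans hD3) hPp
  rw [hHdef] at hd ht
  by_cases hq2 : q = 2
  · subst hq2
    obtain ⟨lam, hlam, hlam2⟩ := exists_lam_two N hNc hNmin.2.1 hNq
    refine contra hreal N P hNc hcop hPp hd ht lam hlam 1 (Subgroup.one_mem _) ?_
    intro n
    rw [← hlam2]
    congr 1
    apply Subtype.ext
    simp
  · have hNodd : Odd (Nat.card N) := by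
      obtain ⟨i, hi⟩ := hNqp.exists_card_eq
      rw [hi]
      exact (hq.odd_of_ne_two hq2).pow
    -- a 2-element acting nontrivially
    have hex : ∃ t : G, (∀ a ∈ N, a * t ^ 2 = t ^ 2 * a) ∧ ∃ y ∈ N, y * t ≠ t * y := by
      by_contra hcon
      push Not at hcon
      have key : ∀ k : ℕ, ∀ t : G, orderOf t = 2 ^ k → ∀ y ∈ N, y * t = t * y := by
        intro k
        induction k with
        | zero =>
          intro t ht
          rw [pow_zero, orderOf_eq_one_iff] at ht
          intro y hy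
          rw [ht, mul_one, one_mul]
        | succ k ih =>
          intro t ht
          refine hcon t (ih (t ^ 2) ?_)
          rw [orderOf_pow, ht, pow_succ', Nat.gcd_eq_right (Dvd.intro _ rfl),
            Nat.mul_div_cancel_left _ two_pos]
      -- the normal subgroup `U ∩ C(N) ∩ H`
      obtain ⟨V, hVdef⟩ : ∃ V, V = U ⊓ (Subgroup.centralizer (N : Set G) ⊓
        Subgroup.normalizer (P : Set G)) := ⟨_, rfl⟩
      have hmemV : ∀ x, x ∈ V ↔ x ∈ U ∧ (∀ a ∈ N, a * x = x * a) ∧
          x ∈ Subgroup.normalizer (P : Set G) := by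
        intro x
        rw [hVdef, Subgroup.mem_inf, Subgroup.mem_inf, Subgroup.mem_centralizer_iff]
        rfl
      have hVn : V.Normal := by
        constructor
        intro x hx g
        have hg : g ∈ N ⊔ Subgroup.normalizer (P : Set G) := by rw [ht]; trivial
        rw [Subgroup.mem_sup_of_normal_left] at hg
        obtain ⟨a, ha, h, hh, rfl⟩ := hg
        rw [hmemV] at hx
        obtain ⟨hx1, hx2, hx3⟩ := hx
        have h1 : ∀ b ∈ N, b * (h * x * h⁻¹) = (h * x * h⁻¹) * b := by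
          intro b hb
          have h2 : h⁻¹ * b * h ∈ N := by
            have := hN.conj_mem b hb h⁻¹
            rwa [inv_inv] at this
          have h3 := hx2 _ h2
          have h4 : b * (h * x * h⁻¹) = h * ((h⁻¹ * b * h) * x) * h⁻¹ := by group
          rw [h4, h3]; group
        have h5 : (a * h) * x * (a * h)⁻¹ = h * x * h⁻¹ := by
          have h6 : (a * h) * x * (a * h)⁻¹ = (a * (h * x * h⁻¹)) * a⁻¹ := by group
          rw [h6, h1 a ha]; group
        rw [h5, hmemV]
        exact ⟨hU.conj_mem x hx1 h, h1, Subgroup.mul_mem _ (Subgroup.mul_mem _ hh hx3)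
          (Subgroup.inv_mem _ hh)⟩
      have h2el : ∀ (k : ℕ) (t : G), orderOf t = 2 ^ k → t ∈ V := by
        intro k t hto
        rw [hmemV]
        have htN := key k t hto
        refine ⟨?_, htN, ?_⟩
        · rw [← QuotientGroup.eq_one_iff, ← orderOf_eq_one_iff]
          have h1 : orderOf (t : G ⧸ U) ∣ 2 ^ k := hto ▸ orderOf_map_dvd (QuotientGroup.mk' U) t
          have h2 : orderOf (t : G ⧸ U) ∣ Nat.card (G ⧸ U) := orderOf_dvd_natCard _
          rw [← Subgroup.index_eq_card] at h2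
          exact Nat.eq_one_of_dvd_coprimes (Nat.Coprime.pow_left k (Nat.coprime_two_left.2 hUodd))
            h1 h2
        · have htm : t ∈ N ⊔ Subgroup.normalizer (P : Set G) := by rw [ht]; trivial
          rw [Subgroup.mem_sup_of_normal_left] at htm
          obtain ⟨a, ha, h, hh, hah⟩ := htm
          have hcomm : Commute a h := by
            have h1 := htN a ha
            rw [← hah] at h1
            have h2 : a * h = h * a := by
              have h3 : a * (a * h) = a * (h * a) := by rw [h1]; group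
              exact mul_left_cancel h3
            exact h2
          have h1 : a ^ 2 ^ k * h ^ 2 ^ k = 1 := by
            rw [← hcomm.mul_pow, hah, ← hto, pow_orderOf_eq_one]
          have h2 : a ^ 2 ^ k ∈ N ⊓ Subgroup.normalizer (P : Set G) := by
            refine ⟨N.pow_mem ha _, ?_⟩
            rw [eq_inv_of_mul_eq_one_left h1]
            exact Subgroup.inv_mem _ (Subgroup.pow_mem _ hh _)
          rw [hd, Subgroup.mem_bot] at h2
          have h3 : a ^ Nat.card N = 1 := by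
            have := pow_card_eq_one' (x := (⟨a, ha⟩ : N))
            exact congrArg Subtype.val this
          have h4 := pow_gcd_eq_one.2 ⟨h2, h3⟩
          rw [Nat.Coprime.pow_left k (Nat.coprime_two_left.2 hNodd), pow_one] at h4
          rw [← hah, h4, one_mul]
          exact hh
      have hVodd : Odd V.index := by
        haveI : Fact (Nat.Prime 2) := ⟨Nat.prime_two⟩
        obtain ⟨S⟩ : Nonempty (Sylow 2 G) := inferInstance
        have hle : (S : Subgroup G) ≤ V := by
          intro x hx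
          obtain ⟨k, hk⟩ := (IsPGroup.iff_orderOf.1 S.2) ⟨x, hx⟩
          apply h2el k x
          rw [← hk]
          exact (Subgroup.orderOf_coe (⟨x, hx⟩ : (S : Subgroup G)))
        have h1 : V.index ∣ (S : Subgroup G).index := Subgroup.index_dvd_of_le hle
        rw [← Nat.not_even_iff_odd, even_iff_two_dvd]
        intro h2
        exact S.not_dvd_index (h2.trans h1)
      obtain ⟨a, ha⟩ := hV V hVn (by rw [hVdef]; exact inf_le_left) hVodd
      have hNV : N ⊓ V = ⊥ := by
        rw [eq_bot_iff, ← hd]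
        intro x hx
        exact ⟨hx.1, ((hmemV x).1 hx.2).2.2⟩
      have h1 : V.relIndex N = Nat.card N := by
        rw [← Subgroup.inf_relIndex_left, hNV, Subgroup.relIndex_bot_left]
      have h2 : V.relIndex N ∣ V.relIndex U := by
        have e1 := Subgroup.relIndex_ker (K := N) (QuotientGroup.mk' V)
        have e2 := Subgroup.relIndex_ker (K := U) (QuotientGroup.mk' V)
        rw [QuotientGroup.ker_mk'] at e1 e2
        rw [e1, e2]
        exact Subgroup.card_dvd_of_le (Subgroup.map_mono hNU)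
      rw [h1, ha] at h2
      have h3 : Nat.card N = 1 := by
        obtain ⟨i, hi⟩ := hNqp.exists_card_eq
        apply Nat.eq_one_of_dvd_coprimes _ (dvd_refl _) h2
        rw [hi]
        exact Nat.Coprime.pow _ _ ((Nat.coprime_primes hq hp.out).2 hqp)
      exact hNmin.2.1 ((Subgroup.card_eq_one).1 h3)
    obtain ⟨t, ht2, y, hy, hyt⟩ := hex
    have htm : t ∈ N ⊔ Subgroup.normalizer (P : Set G) := by rw [ht]; trivial
    rw [Subgroup.mem_sup_of_normal_left] at htm
    obtain ⟨a, ha, h, hh, rfl⟩ := htm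
    have hconj : ∀ x ∈ N, (a * h) * x * (a * h)⁻¹ = h * x * h⁻¹ := by
      intro x hx
      have h1 : (a * h) * x * (a * h)⁻¹ = a * (h * x * h⁻¹) * a⁻¹ := by group
      rw [h1, hNc a ha _ (hN.conj_mem x hx h)]; group
    obtain ⟨lam, hlam, hlam2⟩ := exists_lam_odd N hNc hNodd h
      (by
        intro x hx
        have h1 := ht2 x hx
        have h2 : (a * h) * ((a * h) * x * (a * h)⁻¹) * (a * h)⁻¹ = x := by
          have : (a * h) * ((a * h) * x * (a * h)⁻¹) * (a * h)⁻¹ =
            (a * h) ^ 2 * x * ((a * h) ^ 2)⁻¹ := by rw [pow_two]; group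
          rw [this, ← h1]; group
        rw [hconj x hx, hconj _ (hN.conj_mem x hx h)] at h2
        have h3 : x * h ^ 2 = (h * (h * x * h⁻¹) * h⁻¹) * h ^ 2 := by rw [h2]
        rw [h3, pow_two]; group)
      y hy
      (by
        intro h1
        apply hyt
        have h2 := hconj y hy
        have h3 : h * y * h⁻¹ = y := by rw [← h1]; group
        rw [h3] at h2
        have h4 : y * (a * h) = ((a * h) * y * (a * h)⁻¹) * (a * h) := by rw [h2]
        rw [h4]; group)
    exact contra hreal N P hNc hcop hPp hd ht lam hlam h hh hlam2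

section wrap
variable {G : Type u} [Group G] [Finite G]

theorem closure_normal (r : ℕ) : (Subgroup.closure {g : G | ∃ k : ℕ, orderOf g = r ^ k}).Normal := by
  have : Subgroup.normalClosure {g : G | ∃ k : ℕ, orderOf g = r ^ k} =
      Subgroup.closure {g : G | ∃ k : ℕ, orderOf g = r ^ k} := by
    apply le_antisymm
    · rw [Subgroup.normalClosure]
      apply Subgroup.closure_mono
      intro x hx
      rw [Group.mem_conjugatesOfSet_iff] at hx
      obtain ⟨y, ⟨k, hk⟩, hy⟩ := hx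
      obtain ⟨c, hc⟩ := isConj_iff.1 hy
      refine ⟨k, ?_⟩
      rw [← hk, ← hc]
      exact (MulAut.conj c).orderOf_eq y
    · exact Subgroup.closure_le_normalClosure
  rw [← this]
  exact Subgroup.normalClosure_normal

theorem closure_index (r : ℕ) [hr : Fact r.Prime] :
    ¬ r ∣ (Subgroup.closure {g : G | ∃ k : ℕ, orderOf g = r ^ k}).index := by
  obtain ⟨S⟩ : Nonempty (Sylow r G) := inferInstance
  have hle : (S : Subgroup G) ≤ Subgroup.closure {g : G | ∃ k : ℕ, orderOf g = r ^ k} := by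
    intro x hx
    obtain ⟨k, hk⟩ := (IsPGroup.iff_orderOf.1 S.2) ⟨x, hx⟩
    apply Subgroup.subset_closure
    refine ⟨k, ?_⟩
    rw [← hk]
    exact (Subgroup.orderOf_coe (⟨x, hx⟩ : (S : Subgroup G)))
  intro h
  exact S.not_dvd_index (h.trans (Subgroup.index_dvd_of_le hle))

theorem closure_le (r : ℕ) [hr : Fact r.Prime] (V : Subgroup G) [V.Normal] (hV : ¬ r ∣ V.index) :
    Subgroup.closure {g : G | ∃ k : ℕ, orderOf g = r ^ k} ≤ V := by
  rw [Subgroup.closure_le]
  rintro t ⟨k, hk⟩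
  rw [SetLike.mem_coe, ← QuotientGroup.eq_one_iff, ← orderOf_eq_one_iff]
  have h1 : orderOf (t : G ⧸ V) ∣ r ^ k := hk ▸ orderOf_map_dvd (QuotientGroup.mk' V) t
  have h2 : orderOf (t : G ⧸ V) ∣ Nat.card (G ⧸ V) := orderOf_dvd_natCard _
  rw [← Subgroup.index_eq_card] at h2
  exact Nat.eq_one_of_dvd_coprimes
    (Nat.Coprime.pow_left k ((Nat.Prime.coprime_iff_not_dvd hr.out).2 hV)) h1 h2

theorem sylow_normal (p : ℕ) [hp : Fact p.Prime] (U Q : Subgroup G) [Q.Normal] (hQ : IsPGroup p Q)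
    (hQU : Q ≤ U) (hi : ¬ p ∣ Q.relIndex U) (S : Sylow p U) : (S : Subgroup U).Normal := by
  have h1 : IsPGroup p (Q.subgroupOf U) := hQ.comap_subtype
  have h2 : ¬ p ∣ (Q.subgroupOf U).index := hi
  let S' : Sylow p U := h1.toSylow h2
  have hn : (S' : Subgroup U).Normal := by
    change (Q.subgroupOf U).Normal
    infer_instance
  haveI := Sylow.unique_of_normal S' hn
  have : S = S' := Subsingleton.elim _ _
  rw [this]
  exact hn

theorem s4863 (p : ℕ) [Fact p.Prime]
    (hsolv : Group.IsSolvable ↥(Subgroup.closure {g : G | ∃ k : ℕ, orderOf g = p ^ k}))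
    (hreal : ∀ χ : Cfsg.IrrCharacter G, (∀ g : G, ((χ : G → ℂ) g).im = 0) →
      ¬ p ∣ Cfsg.charDegree (χ : G → ℂ)) (U : Subgroup G) (hU : U.Normal)
    (hKU : (Subgroup.closure {g : G | ∃ k : ℕ, orderOf g = 2 ^ k}) ≤ U)
    (hUp : ∃ a : ℕ, (Subgroup.closure {g : G | ∃ k : ℕ, orderOf g = 2 ^ k}).relIndex U = p ^ a) :
    ∃ Q : Subgroup G, Q.Normal ∧ IsPGroup p Q ∧ Q ≤ U ∧ ¬ p ∣ Q.relIndex U := by
  haveI : Fact (Nat.Prime 2) := ⟨Nat.prime_two⟩
  have hodd : ∀ V : Subgroup G, Odd V.index ↔ ¬ 2 ∣ V.index := by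
    intro V
    rw [← Nat.not_even_iff_odd, even_iff_two_dvd]
  refine mainT p (Nat.card G) G rfl ⟨_, closure_normal p, hsolv, closure_index p⟩ hreal U hU ?_ ?_
  · rw [hodd]
    intro h
    exact closure_index 2 (h.trans (Subgroup.index_dvd_of_le hKU))
  · intro V hV hVU hVo
    haveI := hV
    rw [hodd] at hVo
    have h1 := closure_le 2 V hVo
    obtain ⟨a, ha⟩ := hUp
    have h2 := Subgroup.relIndex_dvd_of_le_left U h1
    rw [ha, Nat.dvd_prime_pow Fact.out] at h2
    obtain ⟨b, -, hb⟩ := h2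
    exact ⟨b, hb⟩

end wrap

end CfsgLib.RealDeg4c
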