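import Cfsg.Statements.S4444
import Cfsg.Agent.LibGlaubG
-- import your own Cfsg.Agent.* helpers here

set_option autoImplicit false
open Cfsg

namespace Cfsg.Agent.S4444

/-- The Glauberman correspondence for a p-group of operators. Inside a finite group Γ let S normalise G with the orders of G and S coprime, S a p-group, and let C = G ⊓ C(S) be the fixed points. Call an irreducible character χ of G S-invariant when χ(s g s⁻¹) = χ(g) for s ∈ S, g ∈ G. Then: (i) for every S-invariant χ there is exactly one irreducible character β of C whose multiplicity [χ_C, β] in the restriction of χ is not divisible by p; (ii) that multiplicity is ≡ 1 or ≡ −1 (mod p); (iii) distinct S-invariant χ give distinct β; (iv) every irreducible character of C arises in this way. So χ ↦ β is a bijection from the S-invariant irreducible characters of G onto the irreducible characters of C. -/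
theorem result {Γ : Type*} [Group Γ] [Fintype Γ] (G S : Subgroup Γ) [Fintype G] (hnorm : ∀ s ∈ S, ∀ g ∈ G, s * g * s⁻¹ ∈ G) (hcop : (Nat.card G).Coprime (Nat.card S)) (p : ℕ) (hp : p.Prime) (hS : IsPGroup p S) (C : Subgroup Γ) [Fintype C] (hC : C = G ⊓ Subgroup.centralizer (S : Set Γ)) (hCG : C ≤ G) : (∀ χ : Cfsg.IrrCharacter G, (∀ s ∈ S, ∀ g g' : G, (g' : Γ) = s * g * s⁻¹ → (χ : G → ℂ) g' = (χ : G → ℂ) g) → ∃! β : Cfsg.IrrCharacter C, ∃ m : ℕ, Cfsg.classInner (fun c : C => (χ : G → ℂ) ⟨c, hCG c.2⟩) (β : C → ℂ) = (m : ℂ) ∧ ¬ p ∣ m) ∧ (∀ χ : Cfsg.IrrCharacter G, (∀ s ∈ S, ∀ g g' : G, (g' : Γ) = s * g * s⁻¹ → (χ : G → ℂ) g' = (χ : G → ℂ) g) → ∀ β : Cfsg.IrrCharacter C, ∀ m : ℕ, Cfsg.classInner (fun c : C => (χ : G → ℂ) ⟨c, hCG c.2⟩) (β : C → ℂ) = (m : ℂ) → ¬ p ∣ m → ((m : ℤ) ≡ 1 [ZMOD p] ∨ (m : ℤ) ≡ -1 [ZMOD p])) ∧ (∀ χ χ' : Cfsg.IrrCharacter G, (∀ s ∈ S, ∀ g g' : G, (g' : Γ) = s * g * s⁻¹ → (χ : G → ℂ) g' = (χ : G → ℂ) g) → (∀ s ∈ S,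 ∀ g g' : G, (g' : Γ) = s * g * s⁻¹ → (χ' : G → ℂ) g' = (χ' : G → ℂ) g) → ∀ β : Cfsg.IrrCharacter C, ∀ m m' : ℕ, Cfsg.classInner (fun c : C => (χ : G → ℂ) ⟨c, hCG c.2⟩) (β : C → ℂ) = (m : ℂ) → ¬ p ∣ m → Cfsg.classInner (fun c : C => (χ' : G → ℂ) ⟨c, hCG c.2⟩) (β : C → ℂ) = (m' : ℂ) → ¬ p ∣ m' → χ = χ') ∧ (∀ β : Cfsg.IrrCharacter C, ∃ χ : Cfsg.IrrCharacter G, (∀ s ∈ S, ∀ g g' : G, (g' : Γ) = s * g * s⁻¹ → (χ : G → ℂ) g' = (χ : G → ℂ) g) ∧ ∃ m : ℕ, Cfsg.classInner (fun c : C => (χ : G → ℂ) ⟨c, hCG c.2⟩) (β : C → ℂ) = (m : ℂ) ∧ ¬ p ∣ m) := by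
  classical
  open CfsgLib CfsgLib.CharBasic CfsgLib.Clifford CfsgLib.Glaub CfsgLib.GlaubG in
  · haveI := Fintype.ofFinite (C.subgroupOf G)
    by_cases hS1 : S = ⊥
    · have hCeq : C = G := by
        rw [hC, hS1]
        ext x
        simp [Subgroup.mem_centralizer_iff]
      subst hCeq
      rename_i gi fi i1 i2
      obtain rfl : i1 = i2 := Subsingleton.elim _ _
      have key : ∀ χ β : Cfsg.IrrCharacter C, ∀ m : ℕ, Cfsg.classInner (fun c : C => (χ : C → ℂ) ⟨c, hCG c.2⟩) (β : C → ℂ) = (m : ℂ) →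
          ¬ p ∣ m → χ = β ∧ m = 1 := by
        intro χ β m hm hmp
        have h1 : (fun c : C => (χ : C → ℂ) ⟨c, hCG c.2⟩) = (χ : C → ℂ) := rfl
        have h1' : Cfsg.classInner (χ : C → ℂ) (β : C → ℂ) = (m : ℂ) := hm
        by_cases e : χ = β
        · refine ⟨e, ?_⟩
          rw [← e, irr_inner_self χ.2] at h1'
          exact_mod_cast h1'.symm
        · exfalso
          rw [irr_inner_ne χ.2 β.2 (fun e' => e (Subtype.ext e'))] at h1'
          have : m = 0 := by exact_mod_cast h1'.symm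
          exact hmp (this ▸ dvd_zero p)
      have key2 : ∀ χ : Cfsg.IrrCharacter C, Cfsg.classInner (fun c : C => (χ : C → ℂ) ⟨c, hCG c.2⟩) (χ : C → ℂ) = ((1 : ℕ) : ℂ) := by
        intro χ
        rw [Nat.cast_one]
        exact irr_inner_self χ.2
      have hp1 : ¬ p ∣ 1 := fun h => hp.one_lt.ne' (Nat.dvd_one.mp h)
      refine ⟨?_, ?_, ?_, ?_⟩
      · intro χ hχ
        refine ⟨χ, ⟨1, key2 χ, hp1⟩, ?_⟩
        rintro β ⟨m, hm, hmp⟩
        exact (key χ β m hm hmp).1.symm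
      · intro χ hχ β m hm hmp
        left
        rw [(key χ β m hm hmp).2]; rfl
      · intro χ χ' h h' β m m' hm hmp hm' hmp'
        exact (key χ β m hm hmp).1.trans (key χ' β m' hm' hmp').1.symm
      · intro β
        refine ⟨β, ?_, 1, key2 β, hp1⟩
        intro s hs g g' hg
        rw [hS1, Subgroup.mem_bot] at hs
        subst hs
        have : g' = g := by
          apply Subtype.ext
          rw [hg]; simp
        rw [this]
    · have hfix := fix_eq G S hnorm C hC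
      have hGp : ¬ p ∣ Nat.card G := by
        intro hdvd
        haveI : Fact p.Prime := ⟨hp⟩
        obtain ⟨k, hk⟩ := IsPGroup.iff_card.mp hS
        have hk0 : k ≠ 0 := by
          rintro rfl
          apply hS1
          rw [pow_zero] at hk
          exact Subgroup.eq_bot_of_card_eq S hk
        have h1 : p ∣ Nat.card S := by rw [hk]; exact dvd_pow_self p hk0
        have h2 := Nat.dvd_gcd hdvd h1
        rw [hcop] at h2
        exact hp.one_lt.ne' (Nat.dvd_one.mp h2)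
      refine ⟨?_, ?_, ?_, ?_⟩
      · intro χ hχ
        have hi := (inv_iff G S hnorm (χ : G → ℂ)).mpr hχ
        obtain ⟨β', hβ', hst⟩ := star_exists (C.subgroupOf G) hp hGp χ.2
        obtain ⟨β, rfl⟩ := exists_toSub hCG β'
        refine ⟨⟨β, (toSub_irr hCG).mp hβ'⟩, (star_iff hCG p _ _).mp hst, ?_⟩
        rintro γ hγ
        have h1 := star_right (GlaubG.conjHom G S hnorm) (C.subgroupOf G) hfix hp hS hGp χ.2 hi
          ((toSub_irr hCG).mpr γ.2) hβ' ((star_iff hCG p _ _).mpr hγ) hst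
        exact Subtype.ext (toSub_inj hCG h1)
      · intro χ hχ β m hm hmp
        have hi := (inv_iff G S hnorm (χ : G → ℂ)).mpr hχ
        have h1 := mult_pm_one (GlaubG.conjHom G S hnorm) (C.subgroupOf G) hfix hp hS hGp χ.2 hi
          ((toSub_irr hCG).mpr β.2) ((ci_eq hCG _ _).trans hm) hmp
        rcases (Nat.prime_iff_prime_int.mp hp).dvd_or_dvd h1 with h | h
        · left
          exact (Int.modEq_iff_dvd.mpr h).symm
        · right
          apply Int.ModEq.symm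
          rw [Int.modEq_iff_dvd]
          simpa using h
      · intro χ χ' h h' β m m' hm hmp hm' hmp'
        exact Subtype.ext (star_left (GlaubG.conjHom G S hnorm) (C.subgroupOf G) hfix hp hS hGp χ.2 χ'.2
          ((inv_iff G S hnorm _).mpr h) ((inv_iff G S hnorm _).mpr h') ((toSub_irr hCG).mpr β.2)
          ((star_iff hCG p _ _).mpr ⟨m, hm, hmp⟩) ((star_iff hCG p _ _).mpr ⟨m', hm', hmp'⟩))
      · intro β
        obtain ⟨χ, hχ, hi, hst⟩ := star_surj (GlaubG.conjHom G S hnorm) (C.subgroupOf G) hfix hp hS hGp ((toSub_irr hCG).mpr β.2)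
        exact ⟨⟨χ, hχ⟩, (inv_iff G S hnorm _).mp hi, (star_iff hCG p _ _).mp hst⟩

end Cfsg.Agent.S4444
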