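import Cfsg.Statements.S4866
import Cfsg.Agent.LibGalChar

set_option autoImplicit false
set_option linter.all false
open Cfsg

namespace Cfsg.Agent.S4866

open CfsgLib.CharBasic CfsgLib.GalChar ComplexConjugate

theorem orbits_eq {A X Y : Type*} [Group A] [Finite A] [MulAction A X] [MulAction A Y] [Finite X]
    [Finite Y] (h : ∀ a : A, Nat.card (MulAction.fixedBy X a) = Nat.card (MulAction.fixedBy Y a)) :
    Nat.card (Quotient (MulAction.orbitRel A X)) = Nat.card (Quotient (MulAction.orbitRel A Y)) := by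
  classical
  haveI := Fintype.ofFinite A
  haveI := Fintype.ofFinite X
  haveI := Fintype.ofFinite Y
  have h1 := MulAction.sum_card_fixedBy_eq_card_orbits_mul_card_group A X
  have h2 := MulAction.sum_card_fixedBy_eq_card_orbits_mul_card_group A Y
  have h3 : ∑ a : A, Fintype.card (MulAction.fixedBy X a) = ∑ a : A, Fintype.card (MulAction.fixedBy Y a) := by
    refine Finset.sum_congr rfl fun a _ => ?_
    rw [← Nat.card_eq_fintype_card, ← Nat.card_eq_fintype_card, h]
  rw [h1, h2] at h3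
  rw [Nat.card_eq_fintype_card, Nat.card_eq_fintype_card]
  exact Nat.eq_of_mul_eq_mul_right Fintype.card_pos h3

section
variable {G : Type*} [Group G] [Finite G] (K : Subgroup G) [K.Normal]

abbrev RealIrr := {θ : Cfsg.IrrCharacter ↥K // (∀ k : ↥K, ((θ : ↥K → ℂ) k).im = 0)}
abbrev RealCls := {c : ConjClasses ↥K // ∀ k : ↥K, ConjClasses.mk k = c → IsConj k k⁻¹}

noncomputable def actIrr (g : G) (θ : IrrCharacter ↥K) : IrrCharacter ↥K :=
  ⟨(θ : ↥K → ℂ) ∘ (MulAut.conjNormal (H := K) g⁻¹), isIrrCharacter_comp_equiv θ.2 _⟩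

theorem actIrr_apply (g : G) (θ : IrrCharacter ↥K) (k : ↥K) :
    (actIrr K g θ : ↥K → ℂ) k = (θ : ↥K → ℂ) (MulAut.conjNormal (H := K) g⁻¹ k) := rfl

noncomputable instance s4866_act1 : MulAction G (RealIrr K) where
  smul g θ := ⟨actIrr K g θ.1, fun k => θ.2 _⟩
  one_smul θ := by
    apply Subtype.ext; apply Subtype.ext; ext k
    change (θ.1 : ↥K → ℂ) (MulAut.conjNormal (H := K) 1⁻¹ k) = _
    simp
  mul_smul g h θ := by
    apply Subtype.ext; apply Subtype.ext; ext k
    change (θ.1 : ↥K → ℂ) (MulAut.conjNormal (H := K) (g * h)⁻¹ k) =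
      (θ.1 : ↥K → ℂ) (MulAut.conjNormal (H := K) h⁻¹ (MulAut.conjNormal (H := K) g⁻¹ k))
    rw [mul_inv_rev, map_mul]; rfl

theorem smul_irr (g : G) (θ : RealIrr K) (k : ↥K) :
    ((g • θ).1 : ↥K → ℂ) k = (θ.1 : ↥K → ℂ) (MulAut.conjNormal (H := K) g⁻¹ k) := rfl

def clsMap (g : G) : ConjClasses ↥K → ConjClasses ↥K :=
  ConjClasses.map (MulAut.conjNormal (H := K) g : ↥K →* ↥K)

theorem clsMap_mk (g : G) (k : ↥K) :
    clsMap K g (ConjClasses.mk k) = ConjClasses.mk (MulAut.conjNormal (H := K) g k) := rfl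

theorem isConj_inv {H : Type*} [Group H] {x y : H} (h : IsConj x y) : IsConj x⁻¹ y⁻¹ := by
  obtain ⟨c, hc⟩ := isConj_iff.1 h
  exact isConj_iff.2 ⟨c, by rw [← hc]; group⟩

theorem real_of_mk {k k' : ↥K} (h : IsConj k k⁻¹) (h' : IsConj k k') : IsConj k' k'⁻¹ :=
  (h'.symm.trans h).trans (isConj_inv h')

noncomputable instance s4866_act2 : MulAction G (RealCls K) where
  smul g c := ⟨clsMap K g c.1, by
    obtain ⟨c, hc⟩ := c
    obtain ⟨k, rfl⟩ := ConjClasses.exists_rep c
    intro k' hk'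
    rw [clsMap_mk, ConjClasses.mk_eq_mk_iff_isConj] at hk'
    refine real_of_mk K ?_ hk'.symm
    have h1 := hc k rfl
    have h2 := (MulAut.conjNormal (H := K) g : ↥K →* ↥K).map_isConj h1
    simpa using h2⟩
  one_smul c := by
    obtain ⟨c, hc⟩ := c
    obtain ⟨k, rfl⟩ := ConjClasses.exists_rep c
    apply Subtype.ext
    change clsMap K 1 (ConjClasses.mk k) = _
    rw [clsMap_mk]; simp
  mul_smul g h c := by
    obtain ⟨c, hc⟩ := c
    obtain ⟨k, rfl⟩ := ConjClasses.exists_rep c
    apply Subtype.ext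
    change clsMap K (g * h) (ConjClasses.mk k) = clsMap K g (clsMap K h (ConjClasses.mk k))
    rw [clsMap_mk, clsMap_mk, clsMap_mk, map_mul]; rfl

theorem fix_eq (hodd : Odd K.index) (g : G) :
    Nat.card (MulAction.fixedBy (RealIrr K) g) = Nat.card (MulAction.fixedBy (RealCls K) g) := by
  haveI := Fintype.ofFinite K
  let α : Equiv.Perm (IrrCharacter ↥K) := irrEquiv (MulAut.conjNormal (H := K) g⁻¹)
  have hα : ∀ θ k, (α θ : ↥K → ℂ) k = (θ : ↥K → ℂ) (MulAut.conjNormal (H := K) g⁻¹ k) := fun _ _ => rfl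
  let f : Equiv.Perm (IrrCharacter ↥K) := conjIrr * α
  let h : Equiv.Perm ↥K := (MulAut.conjNormal (H := K) g).toEquiv.trans (Equiv.inv ↥K)
  have hh : ∀ k, h k = (MulAut.conjNormal (H := K) g k)⁻¹ := fun _ => rfl
  -- g ^ m ∈ K with m odd
  set m := K.index with hm
  have hgm : g ^ m ∈ K := Subgroup.pow_index_mem K g
  have hαpow : ∀ (n : ℕ) θ k, ((α ^ n) θ : ↥K → ℂ) k = (θ : ↥K → ℂ) (MulAut.conjNormal (H := K) (g ^ n)⁻¹ k) := by
    intro n
    induction n with
    | zero => intro θ k; simp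
    | succ n ih =>
      intro θ k
      rw [pow_succ', Equiv.Perm.mul_apply, hα, ih, pow_succ, mul_inv_rev, ]
      have : g * g ^ n = g ^ n * g := (pow_succ' g n).symm.trans (pow_succ g n)
      rw [← mul_inv_rev, ← this, mul_inv_rev, map_mul]; rfl
  have hαm : α ^ m = 1 := by
    ext1 θ
    apply Subtype.ext; ext k
    rw [hαpow]
    have h1 : MulAut.conjNormal (H := K) (g ^ m)⁻¹ k = (⟨g ^ m, hgm⟩ : K)⁻¹ * k * (⟨g ^ m, hgm⟩ : K)⁻¹⁻¹ := by
      apply Subtype.ext; rfl
    rw [h1]
    exact irr_classFun θ.2 k _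
  have hcomm : Commute (conjIrr : Equiv.Perm (IrrCharacter ↥K)) α := by
    ext1 θ
    apply Subtype.ext; ext k; rfl
  have hτ2 : (conjIrr : Equiv.Perm (IrrCharacter ↥K)) ^ 2 = 1 := by
    ext1 θ
    apply Subtype.ext; ext k
    rw [sq]
    change conj (conj ((θ : ↥K → ℂ) k)) = _
    simp
  obtain ⟨r, hr⟩ := hodd
  have hfix1 : ∀ θ, f θ = θ ↔ (conjIrr θ = θ ∧ α θ = θ) := by
    intro θ
    constructor
    · intro h1
      have h2 : ∀ n : ℕ, (f ^ n) θ = θ := fun n => by
        induction n with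
        | zero => rfl
        | succ n ih => rw [pow_succ, Equiv.Perm.mul_apply, h1, ih]
      have h3 : f ^ m = conjIrr := by
        rw [show f = conjIrr * α from rfl, hcomm.mul_pow, hαm, mul_one, hr, pow_succ, pow_mul, hτ2,
          one_pow, one_mul]
      have h4 : conjIrr θ = θ := by rw [← h3]; exact h2 m
      refine ⟨h4, ?_⟩
      have h5 : f θ = conjIrr (α θ) := rfl
      rw [h1] at h5
      have h6 : conjIrr θ = conjIrr (α θ) := by rw [h4]; exact h5
      exact (conjIrr.injective h6).symm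
    · rintro ⟨h1, h2⟩
      change conjIrr (α θ) = θ
      rw [h2, h1]
  have h1 := card_fixed_irr' (G := ↥K) f h (by
    intro x y
    rw [hh, hh]
    constructor
    · intro h1
      exact isConj_inv ((MulAut.conjNormal (H := K) g : ↥K →* ↥K).map_isConj h1)
    · intro h1
      have h2 := isConj_inv h1
      rw [inv_inv, inv_inv] at h2
      have h3 := (MulAut.conjNormal (H := K) g⁻¹ : ↥K →* ↥K).map_isConj h2
      have h4 : ∀ z, (MulAut.conjNormal (H := K) g⁻¹ : ↥K →* ↥K) (MulAut.conjNormal (H := K) g z) = z := by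
        intro z
        change (MulAut.conjNormal (H := K) g⁻¹) (MulAut.conjNormal (H := K) g z) = z
        rw [← MulAut.mul_apply, ← map_mul, inv_mul_cancel, map_one, MulAut.one_apply]
      rwa [h4, h4] at h3) (by
    intro θ k
    rw [hh]
    change conj ((θ : ↥K → ℂ) (MulAut.conjNormal (H := K) g⁻¹ (MulAut.conjNormal (H := K) g k)⁻¹)) = _
    have h2 : MulAut.conjNormal (H := K) g⁻¹ (MulAut.conjNormal (H := K) g k)⁻¹ = k⁻¹ := by
      rw [map_inv, ← MulAut.mul_apply, ← map_mul, inv_mul_cancel, map_one, MulAut.one_apply]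
    rw [h2, char_inv_eq_conj (irr_isCharacter θ.2), Complex.conj_conj])
  -- identify both sides
  have e1 : Nat.card {χ // f χ = χ} = Nat.card (MulAction.fixedBy (RealIrr K) g) := by
    apply Nat.card_congr
    refine ⟨fun χ => ⟨⟨χ.1, (conjIrr_eq_iff _).1 ((hfix1 _).1 χ.2).1⟩, ?_⟩, fun χ => ⟨χ.1.1, ?_⟩, fun _ => rfl, fun _ => rfl⟩
    · apply Subtype.ext
      exact ((hfix1 _).1 χ.2).2
    · refine (hfix1 _).2 ⟨(conjIrr_eq_iff _).2 χ.1.2, ?_⟩
      exact congrArg Subtype.val χ.2
  have e2 : Nat.card {c : ConjClasses ↥K // ∀ k : ↥K, ConjClasses.mk k = c → IsConj k (h k)} =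
      Nat.card (MulAction.fixedBy (RealCls K) g) := by
    apply Nat.card_congr
    have key : ∀ k : ↥K, IsConj k (h k) → IsConj k k⁻¹ ∧ IsConj k (MulAut.conjNormal (H := K) g k) := by
      intro k hk
      -- iterate
      have h2 : ∀ n : ℕ, IsConj k ((MulAut.conjNormal (H := K) (g ^ (2 * n)) k)) := by
        intro n
        induction n with
        | zero =>
          have : MulAut.conjNormal (H := K) (g ^ (2 * 0)) k = k := by simp
          rw [this]
        | succ n ih =>
          have h3 : IsConj (MulAut.conjNormal (H := K) (g ^ (2 * n)) k) (MulAut.conjNormal (H := K) (g ^ (2 * n)) (h k)) :=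
            (MulAut.conjNormal (H := K) (g ^ (2 * n)) : ↥K →* ↥K).map_isConj hk
          have h4 : IsConj (h k) (h (h k)) := by
            have h5 := (MulAut.conjNormal (H := K) g : ↥K →* ↥K).map_isConj hk
            exact isConj_inv h5
          have h6 : IsConj (MulAut.conjNormal (H := K) (g ^ (2 * n)) (h k)) (MulAut.conjNormal (H := K) (g ^ (2 * n)) (h (h k))) :=
            (MulAut.conjNormal (H := K) (g ^ (2 * n)) : ↥K →* ↥K).map_isConj h4
          have h7 : MulAut.conjNormal (H := K) (g ^ (2 * n)) (h (h k)) = MulAut.conjNormal (H := K) (g ^ (2 * (n + 1))) k := by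
            have h8 : h (h k) = MulAut.conjNormal (H := K) (g * g) k := by
              rw [hh, hh, map_inv, inv_inv, ← MulAut.mul_apply, ← map_mul]
            rw [h8, ← MulAut.mul_apply, ← map_mul]
            congr 2
            rw [mul_add, pow_add, mul_one, sq]
          rw [← h7]
          exact ih.trans (h3.trans h6)
      have h3 := h2 (r + 1)
      have h4 : g ^ (2 * (r + 1)) = g ^ m * g := by
        rw [hr, ← pow_succ]; congr 1
      have h5 : ∀ y : ↥K, IsConj y (MulAut.conjNormal (H := K) (g ^ m) y) := fun y =>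
        isConj_iff.2 ⟨⟨g ^ m, hgm⟩, by apply Subtype.ext; rfl⟩
      have h6 : IsConj k (MulAut.conjNormal (H := K) g k) := by
        rw [h4, map_mul, MulAut.mul_apply] at h3
        exact h3.trans (h5 _).symm
      refine ⟨?_, h6⟩
      -- k ~ (g k)⁻¹ ~ k⁻¹
      exact hk.trans (isConj_inv h6).symm
    refine ⟨fun c => ⟨⟨c.1, fun k hk => (key k (c.2 k hk)).1⟩, ?_⟩, fun c => ⟨c.1.1, ?_⟩, fun _ => rfl, fun _ => rfl⟩
    · apply Subtype.ext
      obtain ⟨c, hc⟩ := c
      obtain ⟨k, rfl⟩ := ConjClasses.exists_rep c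
      change clsMap K g (ConjClasses.mk k) = ConjClasses.mk k
      rw [clsMap_mk, ConjClasses.mk_eq_mk_iff_isConj]
      exact (key k (hc k rfl)).2.symm
    · intro k hk
      have h2 := congrArg Subtype.val c.2
      have h3 : clsMap K g c.1.1 = c.1.1 := h2
      rw [← hk, clsMap_mk, ConjClasses.mk_eq_mk_iff_isConj] at h3
      rw [hh]
      exact (c.1.2 k hk).trans (isConj_inv h3).symm
  rw [← e1, ← e2, h1]

end

/-- Let K be a normal subgroup of odd index in the finite group G. Then G has as many orbits on the real-valued irreducible complex characters of K (acting by conjugation) as it has orbits on the conjugacy classes of K that are real in K; equivalently, the number of G-orbits of real-valued irreducible characters of K equals the number of G-conjugacy classes of elements of K that are conjugate in K to their inverses. -/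
theorem result {G : Type*} [Group G] [Finite G] (K : Subgroup G) [K.Normal] (hodd : Odd K.index) : Nat.card (Quot (fun θ η : {θ : Cfsg.IrrCharacter ↥K // (∀ k : ↥K, ((θ : ↥K → ℂ) k).im = 0)} => ∃ g : G, ∀ k k' : ↥K, (k' : G) = g * (k : G) * g⁻¹ → (η.1 : ↥K → ℂ) k' = (θ.1 : ↥K → ℂ) k)) = Nat.card (Quot (fun x y : {x : ↥K // IsConj x x⁻¹} => ∃ g : G, (y.1 : G) = g * x.1 * g⁻¹)) := by
  have h1 := orbits_eq (A := G) (X := RealIrr K) (Y := RealCls K) (fix_eq K hodd)
  have e1 : Nat.card (Quot (fun θ η : {θ : Cfsg.IrrCharacter ↥K // (∀ k : ↥K, ((θ : ↥K → ℂ) k).im = 0)} => ∃ g : G, ∀ k k' : ↥K, (k' : G) = g * (k : G) * g⁻¹ → (η.1 : ↥K → ℂ) k' = (θ.1 : ↥K → ℂ) k)) =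
      Nat.card (Quotient (MulAction.orbitRel G (RealIrr K))) := by
    apply Nat.card_congr
    refine Quot.congr (Equiv.refl _) fun θ η => ?_
    change (∃ g : G, ∀ k k' : ↥K, (k' : G) = g * (k : G) * g⁻¹ → (η.1 : ↥K → ℂ) k' = (θ.1 : ↥K → ℂ) k) ↔ θ ∈ MulAction.orbit G η
    rw [MulAction.mem_orbit_symm]
    constructor
    · rintro ⟨g, hg⟩
      refine ⟨g, ?_⟩
      apply Subtype.ext; apply Subtype.ext; ext k
      change (θ.1 : ↥K → ℂ) (MulAut.conjNormal (H := K) g⁻¹ k) = _
      rw [hg (MulAut.conjNormal (H := K) g⁻¹ k) k]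
      simp only [MulAut.conjNormal_apply]
      group
    · rintro ⟨g, rfl⟩
      refine ⟨g, fun k k' hk => ?_⟩
      change (θ.1 : ↥K → ℂ) (MulAut.conjNormal (H := K) g⁻¹ k') = _
      have h2 : MulAut.conjNormal (H := K) g⁻¹ k' = k := by
        apply Subtype.ext
        simp only [MulAut.conjNormal_apply]
        rw [hk]; group
      rw [h2]
  have e2 : Nat.card (Quot (fun x y : {x : ↥K // IsConj x x⁻¹} => ∃ g : G, (y.1 : G) = g * x.1 * g⁻¹)) =
      Nat.card (Quotient (MulAction.orbitRel G (RealCls K))) := by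
    apply Nat.card_congr
    let F : {x : ↥K // IsConj x x⁻¹} → RealCls K := fun x => ⟨ConjClasses.mk x.1, fun k hk =>
      real_of_mk K x.2 (ConjClasses.mk_eq_mk_iff_isConj.1 hk).symm⟩
    have hF : ∀ x y, (∃ g : G, (y.1 : G) = g * x.1 * g⁻¹) ↔ F x ∈ MulAction.orbit G (F y) := by
      intro x y
      rw [MulAction.mem_orbit_symm]
      constructor
      · rintro ⟨g, hg⟩
        refine ⟨g, ?_⟩
        apply Subtype.ext
        change clsMap K g (ConjClasses.mk x.1) = ConjClasses.mk y.1
        rw [clsMap_mk]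
        congr 1
        apply Subtype.ext
        rw [hg]; rfl
      · rintro ⟨g, hg⟩
        have h2 : clsMap K g (ConjClasses.mk x.1) = ConjClasses.mk y.1 := congrArg Subtype.val hg
        rw [clsMap_mk, ConjClasses.mk_eq_mk_iff_isConj] at h2
        obtain ⟨c, hc⟩ := isConj_iff.1 h2
        refine ⟨c * g, ?_⟩
        rw [← hc]
        simp [MulAut.conjNormal_apply, mul_assoc]
    have hsurj : Function.Surjective F := by
      rintro ⟨c, hc⟩
      obtain ⟨k, rfl⟩ := ConjClasses.exists_rep c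
      exact ⟨⟨k, hc k rfl⟩, rfl⟩
    refine Equiv.ofBijective (Quot.lift (fun x => (Quotient.mk _ (F x) : Quotient (MulAction.orbitRel G (RealCls K)))) ?_) ⟨?_, ?_⟩
    · intro x y hxy
      apply Quotient.sound
      exact (hF x y).1 hxy
    · intro a b
      induction a using Quot.inductionOn with
      | _ x =>
      induction b using Quot.inductionOn with
      | _ y =>
      intro hab
      apply Quot.sound
      exact (hF x y).2 (Quotient.exact hab)
    · intro c
      induction c using Quotient.inductionOn with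
      | _ c =>
      obtain ⟨x, rfl⟩ := hsurj c
      exact ⟨Quot.mk _ x, rfl⟩
  rw [e1, e2, h1]

end Cfsg.Agent.S4866
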