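import Cfsg.Agent.LibRealDeg4c
import Cfsg.Agent.S4866
import Cfsg.Agent.S4444

set_option autoImplicit false
set_option linter.all false

/-! Real characters of `p'`-degree: real classes meet the normalizer of a Sylow subgroup. -/

open scoped ComplexConjugate commutatorElement
open Cfsg CfsgLib.CharBasic CfsgLib.CharIndA CfsgLib.Clifford

namespace CfsgLib.RealDeg4e

universe u

theorem real_above {G : Type u} [Group G] [Fintype G] (N : Subgroup G) [hN : N.Normal] [Fintype N]
    (hodd : Odd N.index) {θ : N → ℂ} (hθ : IsIrrCharacter N θ) (hr : ∀ n, (θ n).im = 0) :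
    ∃ χ : IrrCharacter G, (∀ g, ((χ : G → ℂ) g).im = 0) ∧ classInner (fun n : N => (χ : G → ℂ) n) θ ≠ 0 := by
  classical
  obtain ⟨m, hm, -, hm2⟩ := char_expand (isCharacter_ind N (irr_isCharacter hθ))
  have hconjθ : ∀ n, conj (θ n) = θ n := fun n => Complex.conj_eq_iff_im.2 (hr n)
  have hmult : ∀ χ : IrrCharacter G, classInner (fun n : N => (χ : G → ℂ) n) θ = m χ := by
    intro χ
    have h1 := hm χ
    rw [frobenius N θ (irr_classFun χ.2)] at h1
    have h2 : conj (classInner θ (fun n : N => (χ : G → ℂ) n)) = conj ((m χ : ℕ) : ℂ) := by rw [h1]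
    rw [Complex.conj_natCast] at h2
    rw [← h2, CfsgLib.CharBasic.inner_conj_symm]
  let c : IrrCharacter G → IrrCharacter G := fun χ => ⟨_, isIrrCharacter_conj χ.2⟩
  have hcm : ∀ χ, m (c χ) = m χ := by
    intro χ
    have h1 := hmult (c χ)
    have h2 : classInner (fun n : N => ((c χ : IrrCharacter G) : G → ℂ) n) θ =
        conj (classInner (fun n : N => (χ : G → ℂ) n) θ) := by
      have := inner_conj_conj (fun n : N => (χ : G → ℂ) n) θ
      rw [← this]
      congr 1
      ext n; exact (hconjθ n).symm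
    rw [h2, hmult, Complex.conj_natCast] at h1
    exact_mod_cast h1.symm
  by_contra hcon
  push Not at hcon
  have hz : ∀ χ : IrrCharacter G, (∀ g, ((χ : G → ℂ) g).im = 0) → m χ = 0 := by
    intro χ hχ
    have := hcon χ hχ
    rw [hmult] at this
    exact_mod_cast this
  have hsum : ∑ χ : IrrCharacter G, ((m χ : ZMod 2)) ^ 2 = 0 := by
    refine Finset.sum_involution (fun χ _ => c χ) ?_ ?_ (fun _ _ => Finset.mem_univ _) ?_
    · intro χ _
      rw [hcm]
      exact CharTwo.add_self_eq_zero _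
    · intro χ _ hne heq
      apply hne
      rw [hz χ, Nat.cast_zero]
      · ring
      · intro g
        have h1 : (c χ : G → ℂ) g = (χ : G → ℂ) g := by rw [heq]
        exact Complex.conj_eq_iff_im.1 h1
    · intro χ _
      apply Subtype.ext
      ext g
      show conj (conj ((χ : G → ℂ) g)) = _
      rw [Complex.conj_conj]
  have h3 := ci_ind_self hN hθ
  rw [hm2] at h3
  have hle : N ≤ inertia hN θ := le_inertia hN (irr_classFun hθ)
  have hc : Nat.card N * N.relIndex (inertia hN θ) = Nat.card (inertia hN θ) := by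
    have := Subgroup.card_mul_index (N.subgroupOf (inertia hN θ))
    rw [Nat.card_congr (Subgroup.subgroupOfEquivOfLe hle).toEquiv] at this
    exact this
  have h4 : ∑ χ : IrrCharacter G, (m χ : ℂ) ^ 2 = (N.relIndex (inertia hN θ) : ℂ) := by
    rw [h3, ← hc]
    have : (Nat.card N : ℂ) ≠ 0 := by exact_mod_cast Nat.card_pos.ne'
    push_cast
    rw [inv_mul_cancel_left₀ this]
  have h5 : ∑ χ : IrrCharacter G, (m χ) ^ 2 = N.relIndex (inertia hN θ) := by exact_mod_cast h4
  have h6 : Odd (N.relIndex (inertia hN θ)) := by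
    have : N.relIndex (inertia hN θ) ∣ N.index := by
      rw [← Subgroup.relIndex_mul_index hle]; exact dvd_mul_right _ _
    exact hodd.of_dvd_nat this
  have h7 : ((∑ χ : IrrCharacter G, (m χ) ^ 2 : ℕ) : ZMod 2) = 0 := by
    push_cast; exact hsum
  rw [h5, ZMod.natCast_eq_zero_iff_even] at h7
  exact (Nat.not_even_iff_odd.2 h6) h7

theorem exists_le_of_index {G : Type u} [Group G] [Finite G] {p : ℕ} [hp : Fact p.Prime] (P : Sylow p G)
    (T : Subgroup G) (hT : ¬ p ∣ T.index) : ∃ g : G, ∀ s ∈ (P : Subgroup G), g * s * g⁻¹ ∈ T := by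
  obtain ⟨S⟩ : Nonempty (Sylow p T) := inferInstance
  have h1 : IsPGroup p ((S : Subgroup T).map T.subtype) := S.2.map _
  have h2 : ((S : Subgroup T).map T.subtype).index = (S : Subgroup T).index * T.index := by
    rw [Subgroup.index_map_subtype]
  have h3 : ¬ p ∣ ((S : Subgroup T).map T.subtype).index := by
    rw [h2, hp.out.dvd_mul]
    rintro (h | h)
    · exact S.not_dvd_index h
    · exact hT h
  obtain ⟨g, hg⟩ := MulAction.exists_smul_eq G P (h1.toSylow h3)
  refine ⟨g, fun s hs => ?_⟩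
  have h4 : g * s * g⁻¹ ∈ ((g • P : Sylow p G) : Subgroup G) := by
    rw [Sylow.coe_subgroup_smul]
    exact ⟨s, hs, rfl⟩
  rw [hg] at h4
  obtain ⟨t, -, ht⟩ := h4
  rw [← ht]; exact t.2

theorem exists_pinv {G : Type u} [Group G] [Finite G] (p : ℕ) [hp : Fact p.Prime]
    (hreal : ∀ χ : Cfsg.IrrCharacter G, (∀ g : G, ((χ : G → ℂ) g).im = 0) →
      ¬ p ∣ Cfsg.charDegree (χ : G → ℂ)) (P : Sylow p G) (N : Subgroup G) [hN : N.Normal]
    (hodd : Odd N.index) {θ : N → ℂ} (hθ : IsIrrCharacter N θ) (hr : ∀ n, (θ n).im = 0) :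
    ∃ g : G, ∀ s ∈ (P : Subgroup G), cj hN s (cj hN g θ) = cj hN g θ := by
  classical
  haveI := Fintype.ofFinite G
  haveI : Fintype N := Fintype.ofFinite _
  obtain ⟨χ, hχr, hχ⟩ := real_above N hodd hθ hr
  have h1 := clifford_degree hN χ.2 hθ hχ
  obtain ⟨m, hm⟩ := char_mult (isCharacter_restrict (irr_isCharacter χ.2) N) (irr_isCharacter hθ)
  have hm' : classInner (fun n : N => (χ : G → ℂ) n) θ = m := hm
  obtain ⟨b, -, hb⟩ := irr_one_nat hθ
  rw [hm', hb, CfsgLib.CharInt.irr_one_eq_charDegree χ.2] at h1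
  have h2 : charDegree (χ : G → ℂ) = m * (inertia hN θ).index * b := by exact_mod_cast h1
  have h3 : ¬ p ∣ (inertia hN θ).index := by
    intro h
    apply hreal χ hχr
    rw [h2]
    exact Dvd.dvd.mul_right (Dvd.dvd.mul_left h _) _
  obtain ⟨g, hg⟩ := exists_le_of_index P (inertia hN θ) h3
  refine ⟨g, fun s hs => ?_⟩
  have h4 : cj hN (g * s * g⁻¹) θ = θ := hg s hs
  rw [cj_cj]
  have h5 : g * s = (g * s * g⁻¹) * g := by group
  rw [h5, ← cj_cj, h4]

end CfsgLib.RealDeg4e
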