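import Cfsg.Agent.LibRealDeg4e

set_option autoImplicit false
set_option linter.all false

/-! Real characters of `p'`-degree: the counting argument. -/

open scoped ComplexConjugate commutatorElement
open Cfsg CfsgLib.CharBasic CfsgLib.CharIndA CfsgLib.Clifford

namespace CfsgLib.RealDeg4e

universe u

def RX {G : Type u} [Group G] (K : Subgroup G) (θ η : {θ : IrrCharacter K // ∀ k : K, ((θ : K → ℂ) k).im = 0}) : Prop :=
  ∃ g : G, ∀ k k' : K, (k' : G) = g * (k : G) * g⁻¹ → (η.1 : K → ℂ) k' = (θ.1 : K → ℂ) k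

def RS {G : Type u} [Group G] (K : Subgroup G) (x y : {x : K // IsConj x x⁻¹}) : Prop :=
  ∃ g : G, (y.1 : G) = g * x.1 * g⁻¹

theorem RX_equiv {G : Type u} [Group G] (K : Subgroup G) [hK : K.Normal] : Equivalence (RX K) := by
  refine ⟨?_, ?_, ?_⟩
  · intro θ
    refine ⟨1, fun k k' h => ?_⟩
    have : k' = k := Subtype.ext (by rw [h]; group)
    rw [this]
  · rintro θ η ⟨g, hg⟩
    refine ⟨g⁻¹, fun k k' h => ?_⟩
    exact (hg k' k (by rw [h]; group)).symm
  · rintro θ η ζ ⟨g, hg⟩ ⟨h, hh⟩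
    refine ⟨h * g, fun k k' hk => ?_⟩
    have h1 := hg k ⟨g * k * g⁻¹, hK.conj_mem k k.2 g⟩ rfl
    have h2 := hh ⟨g * k * g⁻¹, hK.conj_mem k k.2 g⟩ k' (by rw [hk]; simp [mul_assoc])
    rw [h2, h1]

theorem RS_equiv {G : Type u} [Group G] (K : Subgroup G) [hK : K.Normal] : Equivalence (RS K) := by
  refine ⟨?_, ?_, ?_⟩
  · intro x
    exact ⟨1, by group⟩
  · rintro x y ⟨g, hg⟩
    exact ⟨g⁻¹, by rw [hg]; group⟩
  · rintro x y z ⟨g, hg⟩ ⟨h, hh⟩
    exact ⟨h * g, by rw [hh, hg]; group⟩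

theorem quot_exact {α : Type*} {r : α → α → Prop} (hr : Equivalence r) {a b : α} (h : Quot.mk r a = Quot.mk r b) :
    r a b := (Equivalence.eqvGen_iff hr).1 (Quot.eqvGen_exact h)

section
variable {G : Type u} [Group G] [Finite G] {p : ℕ} [hp : Fact p.Prime] (P : Sylow p G) (K : Subgroup G) [hK : K.Normal]

abbrev CC : Subgroup G := K ⊓ Subgroup.centralizer ((P : Subgroup G) : Set G)
abbrev NN : Subgroup G := Subgroup.normalizer ((P : Subgroup G) : Set G)

omit hp [Finite G] in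
theorem CC_le_NN : CC P K ≤ NN P := inf_le_right.trans (Subgroup.centralizer_le_normalizer _)

theorem inf_eq (hKp : ¬ p ∣ Nat.card K) : K ⊓ NN P = CC P K := by
  apply le_antisymm
  · rintro n ⟨hnK, hnN⟩
    refine ⟨hnK, ?_⟩
    change n ∈ K at hnK
    change n ∈ NN P at hnN
    change n ∈ Subgroup.centralizer ((P : Subgroup G) : Set G)
    rw [Subgroup.mem_centralizer_iff]
    intro s hs
    have h1 : n * s * n⁻¹ * s⁻¹ ∈ (P : Subgroup G) ⊓ K := by
      refine ⟨(P : Subgroup G).mul_mem ((Subgroup.mem_normalizer_iff.1 hnN s).1 hs) ((P : Subgroup G).inv_mem hs), ?_⟩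
      have : n * s * n⁻¹ * s⁻¹ = n * (s * n⁻¹ * s⁻¹) := by group
      rw [this]
      exact K.mul_mem hnK (hK.conj_mem _ (K.inv_mem hnK) s)
    have h2 : (P : Subgroup G) ⊓ K = ⊥ := by
      apply Subgroup.inf_eq_bot_of_coprime
      obtain ⟨a, ha⟩ := IsPGroup.iff_card.1 P.2
      rw [ha]
      exact Nat.Coprime.pow_left _ ((Nat.Prime.coprime_iff_not_dvd hp.out).2 hKp)
    rw [h2, Subgroup.mem_bot] at h1
    have h3 : n * s * n⁻¹ = s := mul_inv_eq_one.1 h1
    rw [mul_inv_eq_iff_eq_mul] at h3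
    exact h3.symm
  · exact le_inf inf_le_left (CC_le_NN P K)

theorem CC_normal (hKp : ¬ p ∣ Nat.card K) : ((CC P K).subgroupOf (NN P)).Normal := by
  rw [← inf_eq P K hKp]
  have : (K ⊓ NN P).subgroupOf (NN P) = K.subgroupOf (NN P) := Subgroup.inf_subgroupOf_right _ _
  rw [this]
  infer_instance

theorem CC_index (hKp : ¬ p ∣ Nat.card K) (hodd : Odd K.index) : Odd ((CC P K).subgroupOf (NN P)).index := by
  rw [← inf_eq P K hKp]
  have : (K ⊓ NN P).subgroupOf (NN P) = K.subgroupOf (NN P) := Subgroup.inf_subgroupOf_right _ _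
  rw [this]
  exact hodd.of_dvd_nat (Subgroup.relIndex_dvd_index_of_normal K (NN P))

/-- the hom from the relative subgroup into `K` -/
def jj : ((CC P K).subgroupOf (NN P)) →* K :=
  (Subgroup.inclusion inf_le_left).comp (Subgroup.subgroupOfEquivOfLe (CC_le_NN P K)).toMonoidHom

theorem jj_val (x : ((CC P K).subgroupOf (NN P))) : ((jj P K x : K) : G) = ((x : NN P) : G) := rfl

def ff (x : {x : ((CC P K).subgroupOf (NN P)) // IsConj x x⁻¹}) : {x : K // IsConj x x⁻¹} :=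
  ⟨jj P K x.1, by have := (jj P K).map_isConj x.2; rwa [map_inv] at this⟩

def G2 : Quot (RS ((CC P K).subgroupOf (NN P))) → Quot (RS K) :=
  Quot.map (ff P K) (by
    rintro a b ⟨n, hn⟩
    refine ⟨n, ?_⟩
    have := congrArg (Subtype.val : NN P → G) hn
    exact this)

theorem G2_inj (hKp : ¬ p ∣ Nat.card K) : Function.Injective (G2 P K) := by
  intro a b
  induction a using Quot.ind with | _ a => ?_
  induction b using Quot.ind with | _ b => ?_
  intro h
  have h1 := quot_exact (RS_equiv K) h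
  obtain ⟨g, hg⟩ := h1
  have hg' : ((b.1 : NN P) : G) = g * ((a.1 : NN P) : G) * g⁻¹ := hg
  have ha : ((a.1 : NN P) : G) ∈ Subgroup.centralizer ((P : Subgroup G) : Set G) := (Subgroup.mem_subgroupOf.1 a.1.2).2
  have hb : ((b.1 : NN P) : G) ∈ Subgroup.centralizer ((P : Subgroup G) : Set G) := (Subgroup.mem_subgroupOf.1 b.1.2).2
  obtain ⟨n, hn, hn2⟩ := Sylow.conj_eq_normalizer_conj_of_mem_centralizer P ((a.1 : NN P) : G) g⁻¹ ha
    (by rw [inv_inv, ← hg']; exact hb)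
  rw [inv_inv, ← hg'] at hn2
  apply Quot.sound
  refine ⟨⟨n⁻¹, Subgroup.inv_mem _ hn⟩, ?_⟩
  apply Subtype.ext
  show ((b.1 : NN P) : G) = n⁻¹ * ((a.1 : NN P) : G) * (n⁻¹)⁻¹
  rw [hn2, inv_inv]

end

end CfsgLib.RealDeg4e
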