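import Cfsg.Agent.LibRealDeg4f

set_option autoImplicit false
set_option linter.all false

/-! Real characters of `p'`-degree: the counting argument, II. -/

open scoped ComplexConjugate commutatorElement
open Cfsg CfsgLib.CharBasic CfsgLib.CharIndA CfsgLib.Clifford

namespace CfsgLib.RealDeg4e

universe u

variable {G : Type u} [Group G] [Finite G] {p : ℕ} [hp : Fact p.Prime] (P : Sylow p G) (K : Subgroup G) [hK : K.Normal]

theorem count1 (hreal : ∀ χ : Cfsg.IrrCharacter G, (∀ g : G, ((χ : G → ℂ) g).im = 0) →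
      ¬ p ∣ Cfsg.charDegree (χ : G → ℂ)) (hKp : ¬ p ∣ Nat.card K) (hodd : Odd K.index) :
    Nat.card (Quot (RX K)) ≤ Nat.card (Quot (RX ((CC P K).subgroupOf (NN P)))) := by
  classical
  haveI := Fintype.ofFinite G
  haveI : Fintype K := Fintype.ofFinite _
  haveI : Fintype (CC P K) := Fintype.ofFinite _
  haveI : Fintype ((CC P K).subgroupOf (NN P)) := Fintype.ofFinite _
  haveI hCn : ((CC P K).subgroupOf (NN P)).Normal := CC_normal P K hKp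
  have hCG : CC P K ≤ K := inf_le_left
  have hnorm : ∀ s ∈ (P : Subgroup G), ∀ g ∈ K, s * g * s⁻¹ ∈ K := fun s _ g hg => hK.conj_mem g hg s
  have hcop : (Nat.card K).Coprime (Nat.card (P : Subgroup G)) := by
    obtain ⟨a, ha⟩ := IsPGroup.iff_card.1 P.2
    rw [ha]
    exact (Nat.Coprime.pow_left _ ((Nat.Prime.coprime_iff_not_dvd hp.out).2 hKp)).symm
  obtain ⟨h1, -, h3, -⟩ := Cfsg.Agent.S4444.result K (P : Subgroup G) hnorm hcop p hp.out P.2 (CC P K) rfl hCG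
  let PI : IrrCharacter K → Prop := fun χ => ∀ s ∈ (P : Subgroup G), ∀ g g' : K, (g' : G) = s * g * s⁻¹ →
    (χ : K → ℂ) g' = (χ : K → ℂ) g
  let ST : IrrCharacter K → IrrCharacter (CC P K) → Prop := fun χ β => ∃ m : ℕ,
    classInner (fun c : CC P K => (χ : K → ℂ) ⟨c, hCG c.2⟩) (β : CC P K → ℂ) = (m : ℂ) ∧ ¬ p ∣ m
  let e : ((CC P K).subgroupOf (NN P)) ≃* CC P K := Subgroup.subgroupOfEquivOfLe (CC_le_NN P K)
  have hdata : ∀ θ : {θ : IrrCharacter K // ∀ k : K, ((θ : K → ℂ) k).im = 0},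
      ∃ (β' : {β : IrrCharacter ((CC P K).subgroupOf (NN P)) // ∀ k : ((CC P K).subgroupOf (NN P)), ((β : _ → ℂ) k).im = 0})
        (g : G) (χ : IrrCharacter K) (β : IrrCharacter (CC P K)),
        (χ : K → ℂ) = cj hK g (θ.1 : K → ℂ) ∧ PI χ ∧ ST χ β ∧ ∀ c, (β'.1 : _ → ℂ) c = (β : _ → ℂ) (e c) := by
    intro θ
    obtain ⟨g, hg⟩ := exists_pinv p hreal P K hodd θ.1.2 θ.2
    let χ : IrrCharacter K := ⟨cj hK g (θ.1 : K → ℂ), cj_irr hK g θ.1.2⟩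
    have hPI : PI χ := by
      intro s hs k k' hk
      have h4 := congrFun (hg s hs) k
      have hk' : k' = ⟨s * k * s⁻¹, hK.conj_mem k k.2 s⟩ := Subtype.ext hk
      rw [hk']; exact h4
    obtain ⟨β, ⟨m, hm, hmp⟩, huniq⟩ := h1 χ hPI
    have hβr : ∀ c, ((β : CC P K → ℂ) c).im = 0 := by
      have h4 := huniq ⟨_, isIrrCharacter_conj β.2⟩ ⟨m, by
        have h5 := inner_conj_conj (fun c : CC P K => (χ : K → ℂ) ⟨c, hCG c.2⟩) (β : CC P K → ℂ)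
        rw [hm, Complex.conj_natCast] at h5
        rw [← h5]
        congr 1
        ext c
        exact (Complex.conj_eq_iff_im.2 (θ.2 _)).symm, hmp⟩
      intro c
      have h5 : conj ((β : CC P K → ℂ) c) = (β : CC P K → ℂ) c := by
        conv_rhs => rw [← h4]
      exact Complex.conj_eq_iff_im.1 h5
    refine ⟨⟨⟨(β : CC P K → ℂ) ∘ e, (isIrr_comp_equiv e).2 β.2⟩, fun k => hβr _⟩, g, χ, β, rfl, hPI, ⟨m, hm, hmp⟩, fun c => rfl⟩
  choose D g χ β hχ hPI hST hD using hdata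
  let F : Quot (RX K) → Quot (RX ((CC P K).subgroupOf (NN P))) := fun q => Quot.mk _ (D q.out)
  refine Nat.card_le_card_of_injective F ?_
  intro q1 q2 h
  obtain ⟨n, hn⟩ := quot_exact (RX_equiv _) h
  obtain ⟨θ1, hθ1⟩ : ∃ θ, θ = q1.out := ⟨_, rfl⟩
  obtain ⟨θ2, hθ2⟩ : ∃ θ, θ = q2.out := ⟨_, rfl⟩
  rw [← hθ1, ← hθ2] at hn
  let χ3 : IrrCharacter K := ⟨cj hK ((n : G)⁻¹) (χ θ1 : K → ℂ), cj_irr hK _ (χ θ1).2⟩
  have hχ3 : ∀ k : K, (χ3 : K → ℂ) k = (χ θ1 : K → ℂ) ⟨(n : G)⁻¹ * k * (n : G)⁻¹⁻¹, hK.conj_mem k k.2 _⟩ := fun k => rfl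
  have hPI3 : PI χ3 := by
    intro s hs k k' hk
    rw [hχ3, hχ3]
    apply hPI θ1 ((n : G)⁻¹ * s * (n : G))
    · have := (Subgroup.mem_normalizer_iff.1 (Subgroup.inv_mem _ n.2) s).1 hs
      rwa [inv_inv] at this
    · show (n : G)⁻¹ * k' * (n : G)⁻¹⁻¹ = _
      rw [hk]
      show _ = (n : G)⁻¹ * s * (n : G) * ((n : G)⁻¹ * k * (n : G)⁻¹⁻¹) * ((n : G)⁻¹ * s * (n : G))⁻¹
      group
  obtain ⟨m1, hm1, hm1p⟩ := hST θ1
  obtain ⟨m2, hm2, hm2p⟩ := hST θ2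
  have hin : classInner (fun c : CC P K => (χ3 : K → ℂ) ⟨c, hCG c.2⟩) (β θ2 : CC P K → ℂ) = (m1 : ℂ) := by
    rw [← hm1]
    rw [← ci_equiv e, ← ci_equiv e (fun c : CC P K => (χ θ1 : K → ℂ) ⟨c, hCG c.2⟩),
      ← ci_equiv (MulAut.conjNormal n : MulAut ((CC P K).subgroupOf (NN P))) _ ((β θ2 : CC P K → ℂ) ∘ e)]
    congr 1
    · ext c
      show (χ3 : K → ℂ) _ = (χ θ1 : K → ℂ) _
      rw [hχ3]
      refine congrArg (χ θ1 : K → ℂ) (Subtype.ext ?_)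
      show (n : G)⁻¹ * ((n : G) * ((c : NN P) : G) * (n : G)⁻¹) * (n : G)⁻¹⁻¹ = ((c : NN P) : G)
      group
    · ext c
      have h4 := hn c (MulAut.conjNormal n c) rfl
      rw [hD, hD] at h4
      exact h4
  have h5 : χ3 = χ θ2 := h3 χ3 (χ θ2) hPI3 (hPI θ2) (β θ2) m1 m2 hin hm1p hm2 hm2p
  have hR : RX K θ1 θ2 := by
    refine ⟨g θ2 * n * (g θ1)⁻¹, fun k k' hk => ?_⟩
    let h : K := ⟨((n : G) * (g θ1)⁻¹) * k * ((n : G) * (g θ1)⁻¹)⁻¹, hK.conj_mem k k.2 _⟩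
    have h6 : (χ θ2 : K → ℂ) h = (θ2.1 : K → ℂ) k' := by
      rw [hχ θ2, cj_apply]
      refine congrArg (θ2.1 : K → ℂ) (Subtype.ext ?_)
      show g θ2 * (((n : G) * (g θ1)⁻¹) * k * ((n : G) * (g θ1)⁻¹)⁻¹) * (g θ2)⁻¹ = k'
      rw [hk]; group
    have h7 : (χ3 : K → ℂ) h = (θ1.1 : K → ℂ) k := by
      rw [hχ3, hχ θ1, cj_apply]
      refine congrArg (θ1.1 : K → ℂ) (Subtype.ext ?_)
      show g θ1 * ((n : G)⁻¹ * (((n : G) * (g θ1)⁻¹) * k * ((n : G) * (g θ1)⁻¹)⁻¹) * (n : G)⁻¹⁻¹) * (g θ1)⁻¹ = k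
      group
    rw [← h6, ← h7, h5]
  rw [hθ1, hθ2] at hR
  rw [← Quot.out_eq q1, ← Quot.out_eq q2]
  exact Quot.sound hR

theorem conj_into (hreal : ∀ χ : Cfsg.IrrCharacter G, (∀ g : G, ((χ : G → ℂ) g).im = 0) →
      ¬ p ∣ Cfsg.charDegree (χ : G → ℂ)) (hKp : ¬ p ∣ Nat.card K) (hodd : Odd K.index) (x : K)
      (hx : IsConj x x⁻¹) : ∃ c ∈ CC P K, ∃ g : G, (x : G) = g * c * g⁻¹ := by
  haveI hCn : ((CC P K).subgroupOf (NN P)).Normal := CC_normal P K hKp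
  have h1 : Nat.card (Quot (RX K)) = Nat.card (Quot (RS K)) := Cfsg.Agent.S4866.result K hodd
  have h2 : Nat.card (Quot (RX ((CC P K).subgroupOf (NN P)))) = Nat.card (Quot (RS ((CC P K).subgroupOf (NN P)))) :=
    Cfsg.Agent.S4866.result _ (CC_index P K hKp hodd)
  have h3 := count1 P K hreal hKp hodd
  rw [h1, h2] at h3
  have h4 := G2_inj P K hKp
  haveI : Finite (Quot (RS K)) := inferInstance
  haveI : Finite (Quot (RS ((CC P K).subgroupOf (NN P)))) := inferInstance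
  have h5 : Function.Bijective (G2 P K) :=
    (Nat.bijective_iff_injective_and_card _).2 ⟨h4, le_antisymm (Nat.card_le_card_of_injective _ h4) h3⟩
  obtain ⟨q, hq⟩ := h5.2 (Quot.mk _ ⟨x, hx⟩)
  induction q using Quot.ind with | _ a => ?_
  obtain ⟨g, hg⟩ := quot_exact (RS_equiv K) hq
  exact ⟨((a.1 : NN P) : G), Subgroup.mem_subgroupOf.1 a.1.2, g, hg⟩

end CfsgLib.RealDeg4e
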