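import Cfsg.Agent.LibRealDeg4g
import Cfsg.Agent.LibFgElt
import Cfsg.Agent.LibCores

set_option autoImplicit false
set_option linter.all false

/-! Real classes meet the normalizer of a Sylow subgroup. -/

open scoped ComplexConjugate commutatorElement
open Cfsg CfsgLib.CharBasic CfsgLib.CharIndA CfsgLib.Clifford CfsgLib.RealDeg4c CfsgLib.Cores

namespace CfsgLib.RealDeg4e

universe u

variable {G : Type u} [Group G] [Finite G]

theorem case1 (p : ℕ) [hp : Fact p.Prime]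
    (hsolv : Group.IsSolvable ↥(Subgroup.closure {g : G | ∃ k : ℕ, orderOf g = p ^ k}))
    (hreal : ∀ χ : Cfsg.IrrCharacter G, (∀ g : G, ((χ : G → ℂ) g).im = 0) →
      ¬ p ∣ Cfsg.charDegree (χ : G → ℂ)) (hO : pCore p G = ⊥) (P : Sylow p G) (x : G) (hx : IsConj x x⁻¹) :
    ∃ y ∈ Subgroup.normalizer ((P : Subgroup G) : Set G), IsConj x y := by
  haveI : Fact (Nat.Prime 2) := ⟨Nat.prime_two⟩
  haveI hKn : (Subgroup.closure {g : G | ∃ k : ℕ, orderOf g = 2 ^ k}).Normal := closure_normal 2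
  have hidx : ¬ 2 ∣ (Subgroup.closure {g : G | ∃ k : ℕ, orderOf g = 2 ^ k}).index := closure_index 2
  obtain ⟨Q, hQn, hQp, hQK, hQi⟩ := s4863 p hsolv hreal (Subgroup.closure {g : G | ∃ k : ℕ, orderOf g = 2 ^ k}) hKn le_rfl
    ⟨0, by rw [Subgroup.relIndex_self, pow_zero]⟩
  have hmemK : ∀ t : G, (∃ j : ℕ, orderOf t = 2 ^ j) → t ∈ Subgroup.closure {g : G | ∃ k : ℕ, orderOf g = 2 ^ k} :=
    fun t ht => Subgroup.subset_closure ht
  generalize Subgroup.closure {g : G | ∃ k : ℕ, orderOf g = 2 ^ k} = K at *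
  have hodd : Odd K.index := by
    rw [← Nat.not_even_iff_odd, even_iff_two_dvd]; exact hidx
  have hQ1 : Q = ⊥ := by
    rw [eq_bot_iff, ← hO]; exact le_pCore hQn hQp
  have hKp : ¬ p ∣ Nat.card K := by
    rw [hQ1, Subgroup.relIndex_bot_left] at hQi
    exact hQi
  have hxK : x ∈ K := by
    rw [← QuotientGroup.eq_one_iff]
    have h1 : IsConj (x : G ⧸ K) (x : G ⧸ K)⁻¹ := by
      have := (QuotientGroup.mk' K).map_isConj hx
      rw [map_inv] at this
      exact this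
    exact CfsgLib.Real4.eq_one_of_odd (by rw [← Subgroup.index_eq_card]; exact hodd) h1
  obtain ⟨t, ht2, ht⟩ := CfsgLib.Real4.exists_two_element hx
  have hreal' : IsConj (⟨x, hxK⟩ : K) (⟨x, hxK⟩ : K)⁻¹ :=
    isConj_iff.2 ⟨⟨t, hmemK t ht2⟩, Subtype.ext ht⟩
  obtain ⟨c, hc, g, hg⟩ := conj_into P K hreal hKp hodd ⟨x, hxK⟩ hreal'
  refine ⟨c, CC_le_NN P K hc, isConj_iff.2 ⟨g⁻¹, ?_⟩⟩
  have hg' : x = g * c * g⁻¹ := hg
  rw [hg']; group

theorem final (p : ℕ) [hp : Fact p.Prime]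
    (hsolv : Group.IsSolvable ↥(Subgroup.closure {g : G | ∃ k : ℕ, orderOf g = p ^ k}))
    (hreal : ∀ χ : Cfsg.IrrCharacter G, (∀ g : G, ((χ : G → ℂ) g).im = 0) →
      ¬ p ∣ Cfsg.charDegree (χ : G → ℂ)) (P : Sylow p G) (x : G) (hx : IsConj x x⁻¹) :
    ∃ y ∈ Subgroup.normalizer ((P : Subgroup G) : Set G), IsConj x y := by
  have hsurj := QuotientGroup.mk'_surjective (pCore p G)
  have hOP : pCore p G ≤ (P : Subgroup G) := pCore_le_sylow P
  obtain ⟨y, hy, hxy⟩ := case1 (G := G ⧸ pCore p G) p (by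
      haveI := hsolv
      haveI : Group.IsSolvable ↥((Subgroup.closure {g : G | ∃ k : ℕ, orderOf g = p ^ k}).map (QuotientGroup.mk' (pCore p G))) :=
        solvable_of_surjective ((QuotientGroup.mk' (pCore p G)).subgroupMap_surjective _)
      have hle : Subgroup.closure {g : G ⧸ pCore p G | ∃ k : ℕ, orderOf g = p ^ k} ≤
          (Subgroup.closure {g : G | ∃ k : ℕ, orderOf g = p ^ k}).map (QuotientGroup.mk' (pCore p G)) := by
        rw [Subgroup.closure_le]
        rintro g ⟨k, hk⟩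
        obtain ⟨g, rfl⟩ := hsurj g
        obtain ⟨a, b, ha, hb, hab, -, ⟨j, hj⟩, hc⟩ := CfsgLib.FgElt.exists_p_decomp hp.out g
        have hb1 : (QuotientGroup.mk' (pCore p G)) b = 1 := by
          rw [← orderOf_eq_one_iff]
          have h1 : orderOf ((QuotientGroup.mk' (pCore p G)) b) ∣ orderOf b := orderOf_map_dvd _ b
          have h2 : orderOf ((QuotientGroup.mk' (pCore p G)) b) ∣ p ^ k := by
            rw [← hk]
            obtain ⟨i, rfl⟩ := Subgroup.mem_zpowers_iff.1 hb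
            rw [map_zpow]
            exact orderOf_dvd_of_mem_zpowers ⟨i, rfl⟩
          exact Nat.eq_one_of_dvd_coprimes (hc.pow_right k) h1 h2
        refine ⟨a, Subgroup.subset_closure ⟨j, hj⟩, ?_⟩
        rw [← hab, map_mul, hb1, mul_one]
      exact solvable_of_solvable_injective (Subgroup.inclusion_injective hle))
    (by
      intro χ hχ hd
      have h1 := CfsgLib.Quot19.irr_inflate (pCore p G) χ.2
      exact hreal ⟨_, h1⟩ (fun g => hχ g) hd)
    (pCore_quotient_pCore p) (P.mapSurjective hsurj) (x : G ⧸ pCore p G) (by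
      have := (QuotientGroup.mk' (pCore p G)).map_isConj hx
      rw [map_inv] at this
      exact this)
  obtain ⟨g, hg⟩ := isConj_iff.1 hxy
  obtain ⟨g, rfl⟩ := hsurj g
  refine ⟨g * x * g⁻¹, ?_, isConj_iff.2 ⟨g, rfl⟩⟩
  have key : ∀ w : G, (w : G ⧸ pCore p G) ∈ Subgroup.normalizer (((P.mapSurjective hsurj : Sylow p (G ⧸ pCore p G)) :
      Subgroup (G ⧸ pCore p G)) : Set (G ⧸ pCore p G)) → ∀ u ∈ (P : Subgroup G), w * u * w⁻¹ ∈ (P : Subgroup G) := by
    intro w hw u hu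
    have h1 : ((w * u * w⁻¹ : G) : G ⧸ pCore p G) ∈ (P : Subgroup G).map (QuotientGroup.mk' (pCore p G)) := by
      have h2 : (u : G ⧸ pCore p G) ∈ ((P.mapSurjective hsurj : Sylow p (G ⧸ pCore p G)) : Subgroup (G ⧸ pCore p G)) :=
        ⟨u, hu, rfl⟩
      exact (Subgroup.mem_normalizer_iff.1 hw _).1 h2
    obtain ⟨v, hv, hvw⟩ := h1
    have h3 : v⁻¹ * (w * u * w⁻¹) ∈ pCore p G := QuotientGroup.eq.1 hvw
    have := (P : Subgroup G).mul_mem hv (hOP h3)
    rwa [mul_inv_cancel_left] at this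
  have hmem : ((g * x * g⁻¹ : G) : G ⧸ pCore p G) ∈ Subgroup.normalizer (((P.mapSurjective hsurj : Sylow p (G ⧸ pCore p G)) :
      Subgroup (G ⧸ pCore p G)) : Set (G ⧸ pCore p G)) := by
    have h1 : ((g * x * g⁻¹ : G) : G ⧸ pCore p G) = y := hg
    rw [h1]; exact hy
  rw [Subgroup.mem_normalizer_iff]
  intro u
  constructor
  · exact key _ hmem u
  · intro hu
    have hmem' : (((g * x * g⁻¹)⁻¹ : G) : G ⧸ pCore p G) ∈ Subgroup.normalizer (((P.mapSurjective hsurj : Sylow p (G ⧸ pCore p G)) :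
        Subgroup (G ⧸ pCore p G)) : Set (G ⧸ pCore p G)) := by
      rw [QuotientGroup.mk_inv]
      exact Subgroup.inv_mem _ hmem
    have := key _ hmem' _ hu
    have h2 : (g * x * g⁻¹)⁻¹ * (g * x * g⁻¹ * u * (g * x * g⁻¹)⁻¹) * (g * x * g⁻¹)⁻¹⁻¹ = u := by group
    rwa [h2] at this

end CfsgLib.RealDeg4e
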