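import Mathlib
import Cfsg.Agent.LibExtend8
import Cfsg.Agent.LibClifford2
import Cfsg.Agent.LibCharMore

/-! Real irreducible characters of odd degree, part 1 (seat helper20). -/

set_option autoImplicit false
set_option linter.all false

namespace CfsgLib.RealOdd

open Cfsg CfsgLib.CharBasic CfsgLib.CharIndA CfsgLib.Clifford CfsgLib.CharNorm CfsgLib.CharMore
open scoped ComplexConjugate Pointwise

universe u v

/-- real-valued of odd degree -/
def isRO {G : Type u} [Group G] (χ : G → ℂ) : Prop := (∀ g, conj (χ g) = χ g) ∧ ∃ d : ℕ, Odd d ∧ χ 1 = d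

section Basic
variable {G : Type u} [Group G] [Fintype G]

/-- a real character of odd degree has a real irreducible constituent of odd degree -/
theorem exists_real_constituent {θ : G → ℂ} (hθ : IsCharacter G θ) (hRO : isRO θ) :
    ∃ χ : IrrCharacter G, isRO (χ : G → ℂ) ∧ classInner θ (χ : G → ℂ) ≠ 0 := by
  classical
  obtain ⟨hreal, d, hd, hd1⟩ := hRO
  obtain ⟨m, hm, hexp, -⟩ := char_expand hθ
  choose n hn0 hn using fun ψ : IrrCharacter G => irr_one_nat ψ.2
  have hdeg : d = ∑ ψ : IrrCharacter G, m ψ * n ψ := by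
    have h1 := congrFun hexp 1
    simp only [Finset.sum_apply, Pi.smul_apply, smul_eq_mul, hd1, hn] at h1
    exact_mod_cast h1
  by_contra hcon
  push Not at hcon
  let g : IrrCharacter G → IrrCharacter G := fun ψ => ⟨fun x => conj ((ψ : G → ℂ) x), isIrrCharacter_conj ψ.2⟩
  have hg1 : ∀ ψ, n (g ψ) = n ψ := by
    intro ψ
    have h1 := hn (g ψ)
    have h2 : ((g ψ : IrrCharacter G) : G → ℂ) 1 = conj ((ψ : G → ℂ) 1) := rfl
    rw [h2, hn ψ, Complex.conj_natCast] at h1
    exact_mod_cast h1.symm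
  have hgm : ∀ ψ, m (g ψ) = m ψ := by
    intro ψ
    have h1 := hm (g ψ)
    have h2 : classInner θ ((g ψ : IrrCharacter G) : G → ℂ) = conj (classInner θ (ψ : G → ℂ)) := by
      rw [← inner_conj_conj]
      have h3 : (fun x => conj (θ x)) = θ := funext hreal
      rw [h3]
    rw [h2, hm ψ, Complex.conj_natCast] at h1
    exact_mod_cast h1.symm
  have h0 : ∑ ψ : IrrCharacter G, ((m ψ * n ψ : ℕ) : ZMod 2) = 0 := by
    refine Finset.sum_involution (fun ψ _ => g ψ) ?_ ?_ (fun _ _ => Finset.mem_univ _) ?_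
    · intro ψ _
      rw [hg1, hgm]
      exact CharTwo.add_self_eq_zero _
    · intro ψ _ hne heq
      apply hne
      have hodd : ¬ isRO (ψ : G → ℂ) ∨ m ψ = 0 := by
        by_contra hh
        push Not at hh
        apply hh.2
        have := hcon ψ hh.1
        rw [hm] at this
        exact_mod_cast this
      rcases hodd with h | h
      · have hev : ¬ Odd (n ψ) := by
          intro ho
          apply h
          exact ⟨fun x => congrFun (congrArg Subtype.val heq) x, n ψ, ho, hn ψ⟩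
        rw [Nat.not_odd_iff_even] at hev
        rw [Nat.cast_mul, (ZMod.natCast_eq_zero_iff_even).mpr hev, mul_zero]
      · rw [h]; simp
    · intro ψ _
      apply Subtype.ext
      funext x
      exact Complex.conj_conj _
  rw [← Nat.cast_sum, ← hdeg, ZMod.natCast_eq_zero_iff_even] at h0
  exact (Nat.not_even_iff_odd.mpr hd) h0

variable {M : Subgroup G} (hM : M.Normal) [Fintype M]

/-- odd degree characters: an invariant constituent -/
theorem exists_inv {χ : G → ℂ} (hχ : IsIrrCharacter G χ) {d : ℕ} (hd : Odd d) (hd1 : χ 1 = d) {P : Subgroup G} (hP : IsPGroup 2 P)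
    {θ₀ : M → ℂ} (hθ₀ : IsIrrCharacter M θ₀) (h0 : classInner (fun h : M => χ h) θ₀ ≠ 0) :
    ∃ g : G, ∀ x ∈ P, cj hM x (cj hM g θ₀) = cj hM g θ₀ := by
  classical
  haveI : Fact (Nat.Prime 2) := ⟨Nat.prime_two⟩
  have h1 := clifford_degree hM hχ hθ₀ h0
  obtain ⟨m, hm⟩ := (isCharacter_iff.mp (isCharacter_restrict (irr_isCharacter hχ) M)).2 _ hθ₀
  obtain ⟨n, hn0, hn⟩ := irr_one_nat hθ₀
  have h2 : d = m * (inertia hM θ₀).index * n := by
    rw [hd1, hm, hn] at h1
    exact_mod_cast h1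
  have h3 : Odd (inertia hM θ₀).index := by
    rw [h2] at hd
    exact (Nat.odd_mul.mp (Nat.odd_mul.mp hd).1).2
  have h4 : ¬ 2 ∣ Nat.card (G ⧸ inertia hM θ₀) := by
    rw [← Subgroup.index_eq_card]
    exact h3.not_two_dvd_nat
  obtain ⟨q, hq⟩ := hP.nonempty_fixed_point_of_prime_not_dvd_card (G ⧸ inertia hM θ₀) h4
  obtain ⟨g, rfl⟩ := QuotientGroup.mk_surjective q
  refine ⟨g⁻¹, fun x hx => ?_⟩
  have h5 := hq ⟨x, hx⟩
  have h6 : (QuotientGroup.mk (x * g) : G ⧸ inertia hM θ₀) = QuotientGroup.mk g := h5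
  have h7 : (x * g)⁻¹ * g ∈ inertia hM θ₀ := QuotientGroup.eq.mp h6
  have h8 := inv_mem h7
  rw [mem_inertia] at h8
  have h9 : ((x * g)⁻¹ * g)⁻¹ = g⁻¹ * x * g := by group
  rw [h9] at h8
  have h10 := congrArg (cj hM g⁻¹) h8
  rw [cj_cj, mul_assoc, mul_inv_cancel, mul_one, ← cj_cj] at h10
  exact h10

/-- invariant conjugates are conjugate under the normalizer -/
theorem conj_norm {θ : M → ℂ} (P : Sylow 2 G) {g : G} (h1 : ∀ x ∈ (P : Subgroup G), cj hM x θ = θ)
    (h2 : ∀ x ∈ (P : Subgroup G), cj hM x (cj hM g θ) = cj hM g θ) :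
    ∃ n ∈ Subgroup.normalizer ((P : Subgroup G) : Set G), cj hM n θ = cj hM g θ := by
  classical
  haveI : Fact (Nat.Prime 2) := ⟨Nat.prime_two⟩
  set T := inertia hM θ with hT
  have hPT : (P : Subgroup G) ≤ T := fun x hx => h1 x hx
  have hgPT : ((g • P : Sylow 2 G) : Subgroup G) ≤ T := by
    intro y hy
    rw [Sylow.coe_subgroup_smul, Subgroup.mem_pointwise_smul_iff_inv_smul_mem] at hy
    have h3 : (MulAut.conj g)⁻¹ • y = g⁻¹ * y * g := by rw [← map_inv, MulAut.smul_def, MulAut.conj_apply, inv_inv]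
    rw [h3] at hy
    have h4 := h2 _ hy
    rw [cj_cj, cj_eq_iff] at h4
    have h5 : g * (g⁻¹ * y * g) * g⁻¹ = y := by group
    rw [h5] at h4
    exact h4
  obtain ⟨t, ht⟩ := MulAction.exists_smul_eq T ((g • P : Sylow 2 G).subtype hgPT) (P.subtype hPT)
  rw [Sylow.smul_subtype] at ht
  have h3 : (t : G) • g • P = P := Sylow.subtype_injective ht
  rw [← mul_smul] at h3
  refine ⟨t * g, ?_, ?_⟩
  · exact Sylow.smul_eq_iff_mem_normalizer.mp h3
  · rw [← cj_cj]
    congr 1
    exact t.2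

include hM in
/-- odd normal subgroups are in the kernel of real characters of odd degree -/
theorem ker_of_odd {χ : G → ℂ} (hχ : IsIrrCharacter G χ) (hRO : isRO χ) (hodd : Odd (Nat.card M)) (m : G) (hm : m ∈ M) :
    χ m = χ 1 := by
  obtain ⟨θ, hθ, h1⟩ := exists_real_constituent (isCharacter_restrict (irr_isCharacter hχ) M) ⟨fun g => hRO.1 g, hRO.2⟩
  have h2 : (θ : M → ℂ) = fun _ => 1 := CfsgLib.Extend.real_irr_odd hodd θ.2 (fun q => by
    rw [char_inv_eq_conj (irr_isCharacter θ.2)]; exact hθ.1 q)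
  rw [h2] at h1
  have h3 := restrict_of_invariant hM hχ (isIrrCharacter_one (G := M)) (fun g => rfl) h1
  have h4 := congrFun h3 ⟨m, hm⟩
  have h5 := congrFun h3 1
  simp only [Pi.smul_apply, smul_eq_mul, mul_one] at h4 h5
  rw [h4, ← h5]; rfl

end Basic

/-- number of real irreducible characters of odd degree -/
noncomputable def ro (G : Type u) [Group G] : ℕ := Nat.card {χ : IrrCharacter G // isRO (χ : G → ℂ)}

/-- those containing `M` in the kernel -/
noncomputable def roKer (G : Type u) [Group G] (M : Subgroup G) : ℕ :=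
  Nat.card {χ : IrrCharacter G // isRO (χ : G → ℂ) ∧ ∀ m ∈ M, (χ : G → ℂ) m = (χ : G → ℂ) 1}

theorem isRO_comp {G : Type u} [Group G] {Q : Type v} [Group Q] (f : G →* Q) (hf : Function.Surjective f) (χ : Q → ℂ) :
    isRO (χ ∘ f) ↔ isRO χ := by
  unfold isRO
  constructor
  · rintro ⟨h1, d, h2, h3⟩
    refine ⟨fun q => ?_, d, h2, ?_⟩
    · obtain ⟨g, rfl⟩ := hf q
      exact h1 g
    · rw [← h3, Function.comp_apply, map_one]
  · rintro ⟨h1, d, h2, h3⟩
    exact ⟨fun g => h1 (f g), d, h2, by rw [Function.comp_apply, map_one, h3]⟩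

theorem roKer_eq {G : Type u} [Group G] [Finite G] {Q : Type v} [Group Q] (f : G →* Q) (hf : Function.Surjective f) :
    roKer G f.ker = ro Q := by
  classical
  haveI : Finite Q := Finite.of_surjective f hf
  unfold roKer ro
  symm
  apply Nat.card_congr
  refine Equiv.ofBijective (fun χ => ⟨⟨(χ.1 : Q → ℂ) ∘ f, isIrrCharacter_comp_surj χ.1.2 f hf⟩, (isRO_comp f hf _).mpr χ.2, ?_⟩) ⟨?_, ?_⟩
  · intro m hm
    show (χ.1 : Q → ℂ) (f m) = (χ.1 : Q → ℂ) (f 1)
    rw [MonoidHom.mem_ker.mp hm, map_one]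
  · intro χ χ' h
    have h1 : (χ.1 : Q → ℂ) ∘ f = (χ'.1 : Q → ℂ) ∘ f := congrArg (fun x => (x.1 : G → ℂ)) h
    apply Subtype.ext; apply Subtype.ext
    funext q
    obtain ⟨g, rfl⟩ := hf q
    exact congrFun h1 g
  · intro χ
    obtain ⟨χ', h1, h2⟩ := deflate_irr f hf χ.1.2 χ.2.2
    refine ⟨⟨⟨χ', h1⟩, (isRO_comp f hf χ').mp (by rw [← h2]; exact χ.2.1)⟩, ?_⟩
    apply Subtype.ext; apply Subtype.ext
    exact h2.symm

theorem ro_congr {G : Type u} [Group G] [Finite G] {Q : Type v} [Group Q] (e : G ≃* Q) : ro G = ro Q := by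
  rw [← roKer_eq e.toMonoidHom e.surjective]
  have h1 : e.toMonoidHom.ker = ⊥ := (MonoidHom.ker_eq_bot_iff _).mpr e.injective
  rw [h1]
  unfold roKer ro
  apply Nat.card_congr
  refine Equiv.subtypeEquivRight fun χ => ?_
  constructor
  · intro h
    refine ⟨h, fun m hm => ?_⟩
    rw [Subgroup.mem_bot.mp hm]
  · exact fun h => h.1

theorem roKer_of_odd {G : Type u} [Group G] [Finite G] {M : Subgroup G} (hM : M.Normal) (hodd : Odd (Nat.card M)) :
    roKer G M = ro G := by
  haveI := Fintype.ofFinite G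
  haveI := Fintype.ofFinite M
  unfold roKer ro
  apply Nat.card_congr
  refine Equiv.subtypeEquivRight fun χ => ?_
  constructor
  · exact fun h => h.1
  · intro h
    exact ⟨h, fun m hm => ker_of_odd hM χ.2 h hodd m hm⟩

end CfsgLib.RealOdd
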