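import Cfsg.Agent.LibRealOdd
import Cfsg.Agent.LibExtend4
import Cfsg.Agent.LibGlaub4

/-! Real irreducible characters of odd degree, part 2 (seat helper20). -/

set_option autoImplicit false
set_option linter.all false

namespace CfsgLib.RealOdd

open Cfsg CfsgLib.CharBasic CfsgLib.CharIndA CfsgLib.Clifford CfsgLib.CharNorm CfsgLib.CharMore
open scoped ComplexConjugate Pointwise

universe u v

/-- the determinant of a real odd degree character extending a central-type linear character -/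
theorem exists_mu {H : Type u} [Group H] [Fintype H] {ψ : H → ℂ} (hψ : IsIrrCharacter H ψ) (hRO : isRO ψ) (M : Subgroup H)
    (l : M →* ℂˣ) (hl2 : ∀ m, l m * l m = 1) (hinv : ∀ m : M, ψ m = ψ 1 * (l m : ℂ)) :
    ∃ μ : H →* ℂˣ, (∀ x, μ x * μ x = 1) ∧ ∀ m : M, μ m = l m := by
  obtain ⟨hreal, d, hd, hd1⟩ := hRO
  obtain ⟨n, ρ, hρ, rfl⟩ := hψ
  have hn : n = d := by
    rw [Representation.char_one] at hd1
    have : Module.finrank ℂ (Fin n → ℂ) = n := by simp
    rw [this] at hd1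
    exact_mod_cast hd1
  subst hn
  have hfin : Module.finrank ℂ (Fin n → ℂ) = n := by simp
  obtain ⟨μ, hμ⟩ := CfsgLib.Extend.detChar_irr (isIrrCharacter_character ρ)
  have h1 := CfsgLib.Extend.detChar_eq ρ
  have h2 : ∀ g, (μ g : ℂ) = LinearMap.det (ρ g) := fun g => by
    have h3 := congrFun hμ g
    rw [h1] at h3
    exact h3.symm
  have hdualchar : ρ.dual.character = ρ.character := by
    ext g
    rw [Representation.char_dual, character_inv]
    exact hreal g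
  haveI : ρ.dual.IsIrreducible := by
    apply CfsgLib.Extend.isIrreducible_of_char
    rw [hdualchar]; exact isIrrCharacter_character ρ
  have h4 := CfsgLib.Extend.detChar_eq ρ.dual
  rw [hdualchar, h1] at h4
  have h5 : ∀ g, LinearMap.det (ρ g) = LinearMap.det (ρ g⁻¹) := by
    intro g
    have h6 := congrFun h4 g
    rw [h6, Representation.dual_apply]
    exact LinearMap.det_dualMap _
  refine ⟨μ, fun x => ?_, fun m => ?_⟩
  · apply Units.ext
    rw [Units.val_mul, h2, Units.val_one]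
    nth_rw 2 [h5]
    rw [← map_mul, ← map_mul, mul_inv_cancel, map_one, map_one]
  · apply Units.ext
    rw [h2]
    have h6 : ‖(l m : ℂ)‖ = 1 := by
      have h7 : (l m : ℂ) * (l m : ℂ) = 1 := by rw [← Units.val_mul, hl2, Units.val_one]
      have h8 : (l m : ℂ) ^ 2 = 1 := by rw [pow_two]; exact h7
      exact Complex.norm_eq_one_of_pow_eq_one h8 two_ne_zero
    have h7 : ‖ρ.character (m : H)‖ = (Module.finrank ℂ (Fin n → ℂ) : ℝ) := by
      rw [hinv, hd1, norm_mul, h6, mul_one, hfin]; simp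
    obtain ⟨ω, hω⟩ := (norm_character_eq_iff ρ _).mp h7
    have h8 : ω = l m := by
      have h9 := hinv m
      rw [hd1, Representation.character, hω, map_smul, LinearMap.trace_id, hfin, smul_eq_mul] at h9
      have hn0 : (n : ℂ) ≠ 0 := by
        have : n ≠ 0 := by rintro rfl; exact absurd hd (by decide)
        exact_mod_cast this
      rw [mul_comm] at h9
      exact mul_left_cancel₀ hn0 h9
    rw [hω, h8, LinearMap.det_smul, LinearMap.det_id, mul_one, hfin]
    obtain ⟨k, hk⟩ := hd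
    have h9 : (l m : ℂ) ^ 2 = 1 := by rw [pow_two, ← Units.val_mul, hl2, Units.val_one]
    rw [hk, pow_succ, pow_mul, h9, one_pow, one_mul]

/-- real odd-degree characters over `θ` -/
noncomputable def ovc (G : Type u) [Group G] (M : Subgroup G) (θ : M → ℂ) : ℕ :=
  Nat.card {χ : IrrCharacter G // isRO (χ : G → ℂ) ∧ ∑ᶠ m : M, (χ : G → ℂ) m * conj (θ m) ≠ 0}

theorem over_iff {G : Type u} [Group G] {M : Subgroup G} [Fintype M] (χ : G → ℂ) (θ : M → ℂ) :
    (∑ᶠ m : M, χ m * conj (θ m) ≠ 0) ↔ classInner (fun m : M => χ m) θ ≠ 0 := by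
  have hcard : (Nat.card M : ℂ) ≠ 0 := by exact_mod_cast Nat.card_pos.ne'
  unfold classInner
  rw [mul_ne_zero_iff, finsum_eq_sum_of_fintype]
  exact ⟨fun h => ⟨inv_ne_zero hcard, h⟩, fun h => h.2⟩

theorem ovc_congr {G : Type u} [Group G] {G' : Type v} [Group G'] (e : G ≃* G') (M : Subgroup G) (M' : Subgroup G')
    (hM : ∀ x, x ∈ M ↔ e x ∈ M') (θ : M → ℂ) (θ' : M' → ℂ) (hθ : ∀ m : M, θ m = θ' ⟨e m, (hM m).mp m.2⟩) :
    ovc G M θ = ovc G' M' θ' := by
  unfold ovc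
  symm
  apply Nat.card_congr
  refine Equiv.subtypeEquiv (irrEquiv e) fun χ => ?_
  have h1 : ((irrEquiv e χ : IrrCharacter G) : G → ℂ) = (χ : G' → ℂ) ∘ e := rfl
  have h2 : isRO ((irrEquiv e χ : IrrCharacter G) : G → ℂ) ↔ isRO (χ : G' → ℂ) := isRO_comp e.toMonoidHom e.surjective χ
  have h3 : ∑ᶠ m : M, ((irrEquiv e χ : IrrCharacter G) : G → ℂ) m * conj (θ m) = ∑ᶠ m : M', (χ : G' → ℂ) m * conj (θ' m) := by
    let f : M → M' := fun m => ⟨e m, (hM m).mp m.2⟩
    have hf : Function.Bijective f := by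
      constructor
      · intro a b hab
        exact Subtype.ext (e.injective (congrArg Subtype.val hab))
      · intro b
        refine ⟨⟨e.symm b, (hM _).mpr (by rw [e.apply_symm_apply]; exact b.2)⟩, Subtype.ext (e.apply_symm_apply _)⟩
    refine finsum_eq_of_bijective f hf fun m => ?_
    rw [hθ m]; rfl
  rw [h2, h3]

section Cliff
variable {G : Type u} [Group G] [Fintype G] {M : Subgroup G} (hM : M.Normal) [Fintype M]

theorem ind_real (T : Subgroup G) [Fintype T] (ψ : T → ℂ) (g : G) : conj (indFun T ψ g) = indFun T (fun t => conj (ψ t)) g := by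
  rw [ind_apply, ind_apply, map_mul, map_sum, map_inv₀, map_natCast]
  congr 1
  refine Finset.sum_congr rfl fun x _ => ?_
  by_cases hx : x⁻¹ * g * x ∈ T
  · rw [ext_mem T _ hx, ext_mem T _ hx]
  · rw [ext_not_mem T _ hx, ext_not_mem T _ hx, map_zero]

theorem ovc_clifford {θ : M → ℂ} (hθ : IsIrrCharacter M θ) (hreal : ∀ m, conj (θ m) = θ m) (T : Subgroup G)
    (hT : ∀ g, g ∈ T ↔ cj hM g θ = θ) (hMT : M ≤ T) (hodd : Odd T.index) :
    ovc G M θ = ovc T (M.subgroupOf T) (toSub T θ) := by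
  classical
  haveI : Fintype T := Fintype.ofFinite T
  haveI : Fintype (M.subgroupOf T) := Fintype.ofFinite _
  have hTi : (T.index : ℂ) ≠ 0 := by exact_mod_cast Subgroup.index_ne_zero_of_finite
  have hov : ∀ ψ : T → ℂ, (∑ᶠ m : M.subgroupOf T, ψ m * conj (toSub T θ m) ≠ 0) ↔ classInner (resT hMT ψ) θ ≠ 0 := by
    intro ψ
    rw [over_iff, ← ci_toSub hMT, toSub_resT]
  unfold ovc
  symm
  apply Nat.card_congr
  have key : ∀ ψ : IrrCharacter T, isRO (ψ : T → ℂ) ∧ (∑ᶠ m : M.subgroupOf T, (ψ : T → ℂ) m * conj (toSub T θ m) ≠ 0) →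
      IsIrrCharacter G (indFun T (ψ : T → ℂ)) ∧ isRO (indFun T (ψ : T → ℂ)) ∧
        ∑ᶠ m : M, indFun T (ψ : T → ℂ) m * conj (θ m) ≠ 0 := by
    rintro ψ ⟨⟨hr, d, hd, hd1⟩, hov1⟩
    rw [hov] at hov1
    obtain ⟨h1, h2⟩ := clifford_corr hM hMT hθ hT ψ.2 hov1
    refine ⟨h1, ⟨fun g => ?_, T.index * d, hodd.mul hd, ?_⟩, ?_⟩
    · rw [ind_real]
      congr 1
      exact funext hr
    · rw [ind_one, hd1]; push_cast; ring
    · rw [over_iff, h2]; exact hov1
  refine Equiv.ofBijective (fun ψ => ⟨⟨indFun T (ψ.1 : T → ℂ), (key ψ.1 ψ.2).1⟩, (key ψ.1 ψ.2).2⟩) ⟨?_, ?_⟩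
  · intro ψ ψ' h
    have h1 : indFun T (ψ.1 : T → ℂ) = indFun T (ψ'.1 : T → ℂ) := congrArg (fun x => (x.1 : G → ℂ)) h
    apply Subtype.ext; apply Subtype.ext
    exact clifford_corr_inj hM hMT hθ hT ψ.1.2 ψ'.1.2 ((hov _).mp ψ.2.2) ((hov _).mp ψ'.2.2) h1
  · intro χ
    obtain ⟨⟨hr, d, hd, hd1⟩, hov1⟩ := χ.2
    rw [over_iff] at hov1
    obtain ⟨ψ, hψ, hψov, hψind, -⟩ := clifford_corr_surj hM hMT hθ hT χ.1.2 hov1
    have hψreal : (fun t => conj (ψ t)) = ψ := by
      have h2 : classInner (resT hMT (fun t => conj (ψ t))) θ ≠ 0 := by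
        have h3 : resT hMT (fun t => conj (ψ t)) = fun m => conj (resT hMT ψ m) := rfl
        have h4 : θ = fun m => conj (θ m) := (funext hreal).symm
        rw [h3, h4, inner_conj_conj]
        exact fun h => hψov ((map_eq_zero _).mp h)
      apply clifford_corr_inj hM hMT hθ hT (isIrrCharacter_conj hψ) hψ h2 hψov
      funext g
      rw [← ind_real, hψind]
      exact hr g
    obtain ⟨n, hn0, hn⟩ := irr_one_nat hψ
    have hψodd : Odd n := by
      have h2 := congrFun hψind 1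
      rw [ind_one, hn, hd1] at h2
      have h3 : T.index * n = d := by exact_mod_cast h2
      rw [← h3] at hd
      exact (Nat.odd_mul.mp hd).2
    refine ⟨⟨⟨ψ, hψ⟩, ⟨fun g => congrFun hψreal g, n, hψodd, hn⟩, (hov ψ).mpr hψov⟩, ?_⟩
    apply Subtype.ext; apply Subtype.ext
    exact hψind

end Cliff

section Mu
variable {G : Type u} [Group G] [Fintype G] {M : Subgroup G} (hM : M.Normal)

theorem isRO_mul {ψ : G → ℂ} (μ : G →* ℂˣ) (hμ : ∀ x, μ x * μ x = 1) : isRO ψ → isRO (fun g => ψ g * (μ g : ℂ)) := by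
  rintro ⟨h1, d, h2, h3⟩
  refine ⟨fun g => ?_, d, h2, by simp [h3]⟩
  have h4 : (μ g : ℂ) * (μ g : ℂ) = 1 := by rw [← Units.val_mul, hμ, Units.val_one]
  have h5 : (μ g : ℂ) = 1 ∨ (μ g : ℂ) = -1 := mul_self_eq_one_iff.mp h4
  show conj (ψ g * (μ g : ℂ)) = ψ g * (μ g : ℂ)
  rw [map_mul, h1]
  rcases h5 with h5 | h5 <;> rw [h5] <;> simp

/-- multiplication by a real linear character extending `θ` -/
theorem ovc_mu (hM : M.Normal) (μ : G →* ℂˣ) (hμ : ∀ x, μ x * μ x = 1) : ovc G M (fun m => (μ m : ℂ)) = roKer G M := by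
  classical
  haveI : Fintype M := Fintype.ofFinite M
  have hsq : ∀ g, (μ g : ℂ) * (μ g : ℂ) = 1 := fun g => by rw [← Units.val_mul, hμ, Units.val_one]
  have hcj : ∀ g, conj (μ g : ℂ) = μ g := by
    intro g
    rcases mul_self_eq_one_iff.mp (hsq g) with h | h <;> rw [h] <;> simp
  have hθirr : IsIrrCharacter M (fun m : M => (μ m : ℂ)) := isIrrCharacter_hom (μ.comp M.subtype)
  have hinv : ∀ g, cj hM g (fun m : M => (μ m : ℂ)) = fun m : M => (μ m : ℂ) := by
    intro g; funext m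
    show (μ (g * m * g⁻¹) : ℂ) = μ m
    rw [map_mul, map_mul, map_inv, mul_comm (μ g), mul_inv_cancel_right]
  unfold ovc roKer
  apply Nat.card_congr
  have key : ∀ χ : IrrCharacter G, (∑ᶠ m : M, (χ : G → ℂ) m * conj (μ m : ℂ) ≠ 0) ↔ ∀ m ∈ M, (χ : G → ℂ) m * μ m = (χ : G → ℂ) 1 := by
    intro χ
    rw [over_iff]
    constructor
    · intro h m hm
      have h1 := restrict_of_invariant hM χ.2 hθirr hinv h
      have h2 := congrFun h1 ⟨m, hm⟩
      have h3 := congrFun h1 1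
      simp only [Pi.smul_apply, smul_eq_mul, Subgroup.coe_one, map_one, Units.val_one, mul_one] at h2 h3
      rw [h2, mul_assoc, hsq, mul_one, ← h3]
    · intro h h1
      have h2 : (fun m : M => (χ : G → ℂ) m) = (χ : G → ℂ) 1 • (fun m : M => (μ m : ℂ)) := by
        funext m
        have h3 := h m m.2
        show (χ : G → ℂ) m = (χ : G → ℂ) 1 * μ m
        rw [← h3, mul_assoc, hsq, mul_one]
      rw [h2, ci_smul_l, irr_inner_self hθirr, mul_one] at h1
      exact irr_one_ne_zero χ.2 h1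
  refine Equiv.ofBijective (fun χ => ⟨⟨fun g => (χ.1 : G → ℂ) g * (μ g : ℂ), CfsgLib.Glaub4.irr_mul_linear χ.1.2 μ⟩,
    isRO_mul μ hμ χ.2.1, ?_⟩) ⟨?_, ?_⟩
  · intro m hm
    show (χ.1 : G → ℂ) m * (μ m : ℂ) = (χ.1 : G → ℂ) 1 * (μ 1 : ℂ)
    rw [(key χ.1).mp χ.2.2 m hm, map_one, Units.val_one, mul_one]
  · intro χ χ' h
    apply Subtype.ext; apply Subtype.ext
    funext g
    have h1 : (χ.1 : G → ℂ) g * (μ g : ℂ) = (χ'.1 : G → ℂ) g * (μ g : ℂ) := congrFun (congrArg (fun x => (x.1 : G → ℂ)) h) g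
    exact mul_right_cancel₀ (Units.ne_zero _) h1
  · intro χ
    refine ⟨⟨⟨fun g => (χ.1 : G → ℂ) g * (μ g : ℂ), CfsgLib.Glaub4.irr_mul_linear χ.1.2 μ⟩, isRO_mul μ hμ χ.2.1, ?_⟩, ?_⟩
    · rw [key]
      intro m hm
      show (χ.1 : G → ℂ) m * (μ m : ℂ) * μ m = (χ.1 : G → ℂ) 1 * (μ 1 : ℂ)
      rw [mul_assoc, hsq, mul_one, map_one, Units.val_one, mul_one]
      exact χ.2.2 m hm
    · apply Subtype.ext; apply Subtype.ext
      funext g
      show (χ.1 : G → ℂ) g * (μ g : ℂ) * (μ g : ℂ) = (χ.1 : G → ℂ) g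
      rw [mul_assoc, hsq, mul_one]

end Mu

end CfsgLib.RealOdd
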