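import Cfsg.Agent.LibRealOdd2
import Cfsg.Agent.LibCores

/-! Real irreducible characters of odd degree, part 3 (seat helper20). -/

set_option autoImplicit false
set_option linter.all false

namespace CfsgLib.RealOdd

open Cfsg CfsgLib.CharBasic CfsgLib.CharIndA CfsgLib.Clifford CfsgLib.CharNorm CfsgLib.CharMore
open scoped ComplexConjugate Pointwise

universe u v

/-- the Frattini argument for Sylow subgroups of a quotient -/
theorem exists_norm_lift {G : Type u} [Group G] [Finite G] {p : ℕ} [Fact p.Prime] (P : Sylow p G) (M : Subgroup G) [hM : M.Normal]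
    {q : G ⧸ M} (hq : q ∈ Subgroup.normalizer (((P.mapSurjective (QuotientGroup.mk'_surjective M) : Sylow p (G ⧸ M)) : Subgroup (G ⧸ M)) : Set (G ⧸ M))) :
    ∃ n ∈ Subgroup.normalizer ((P : Subgroup G) : Set G), QuotientGroup.mk n = q := by
  classical
  obtain ⟨g, rfl⟩ := QuotientGroup.mk_surjective q
  set H : Subgroup G := ((P.mapSurjective (QuotientGroup.mk'_surjective M) : Sylow p (G ⧸ M)) : Subgroup (G ⧸ M)).comap (QuotientGroup.mk' M) with hH
  have hPbar : ((P.mapSurjective (QuotientGroup.mk'_surjective M) : Sylow p (G ⧸ M)) : Subgroup (G ⧸ M)) = (P : Subgroup G).map (QuotientGroup.mk' M) :=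
    Sylow.coe_mapSurjective _ _
  have hPH : (P : Subgroup G) ≤ H := by
    intro x hx
    rw [hH, Subgroup.mem_comap, hPbar]
    exact ⟨x, hx, rfl⟩
  have hgPH : ((g • P : Sylow p G) : Subgroup G) ≤ H := by
    intro y hy
    rw [Sylow.coe_subgroup_smul, Subgroup.mem_pointwise_smul_iff_inv_smul_mem] at hy
    have h3 : (MulAut.conj g)⁻¹ • y = g⁻¹ * y * g := by rw [← map_inv, MulAut.smul_def, MulAut.conj_apply, inv_inv]
    rw [h3] at hy
    rw [hH, Subgroup.mem_comap]
    have h4 := (Subgroup.mem_normalizer_iff.mp hq (QuotientGroup.mk' M (g⁻¹ * y * g))).mp (by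
      rw [hPbar]; exact ⟨_, hy, rfl⟩)
    have h5 : (QuotientGroup.mk g : G ⧸ M) * QuotientGroup.mk' M (g⁻¹ * y * g) * (QuotientGroup.mk g)⁻¹ = QuotientGroup.mk' M y := by
      show (QuotientGroup.mk' M g) * QuotientGroup.mk' M (g⁻¹ * y * g) * (QuotientGroup.mk' M g)⁻¹ = QuotientGroup.mk' M y
      rw [← map_mul, ← map_inv, ← map_mul]
      congr 1; group
    rw [h5] at h4
    exact h4
  obtain ⟨t, ht⟩ := MulAction.exists_smul_eq H ((g • P : Sylow p G).subtype hgPH) (P.subtype hPH)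
  rw [Sylow.smul_subtype] at ht
  have h3 : (t : G) • g • P = P := Sylow.subtype_injective ht
  rw [← mul_smul] at h3
  have h4 : (t : G) * g ∈ Subgroup.normalizer ((P : Subgroup G) : Set G) := Sylow.smul_eq_iff_mem_normalizer.mp h3
  have h5 : QuotientGroup.mk' M (t : G) ∈ (P : Subgroup G).map (QuotientGroup.mk' M) := by
    rw [← hPbar]; exact t.2
  obtain ⟨y, hy, hyt⟩ := h5
  refine ⟨y⁻¹ * (t * g), mul_mem (inv_mem (Subgroup.le_normalizer hy)) h4, ?_⟩
  show QuotientGroup.mk' M (y⁻¹ * (t * g)) = QuotientGroup.mk' M g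
  rw [map_mul, map_inv, map_mul, hyt, inv_mul_cancel_left]

/-- characters of the normalizer of the image of a Sylow subgroup -/
theorem ro_norm_quot {G : Type u} [Group G] [Finite G] (P : Sylow 2 G) (M : Subgroup G) [hM : M.Normal] [Fact (Nat.Prime 2)] :
    ro (Subgroup.normalizer (((P.mapSurjective (QuotientGroup.mk'_surjective M) : Sylow 2 (G ⧸ M)) : Subgroup (G ⧸ M)) : Set (G ⧸ M))) =
      roKer (Subgroup.normalizer ((P : Subgroup G) : Set G)) (M.subgroupOf (Subgroup.normalizer ((P : Subgroup G) : Set G))) := by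
  classical
  set N := Subgroup.normalizer ((P : Subgroup G) : Set G) with hN
  have hPbar : ((P.mapSurjective (QuotientGroup.mk'_surjective M) : Sylow 2 (G ⧸ M)) : Subgroup (G ⧸ M)) = (P : Subgroup G).map (QuotientGroup.mk' M) :=
    Sylow.coe_mapSurjective _ _
  have hmem : ∀ x : N, ((QuotientGroup.mk' M).comp N.subtype) x ∈
      Subgroup.normalizer (((P.mapSurjective (QuotientGroup.mk'_surjective M) : Sylow 2 (G ⧸ M)) : Subgroup (G ⧸ M)) : Set (G ⧸ M)) := by
    intro x
    rw [hPbar]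
    exact Subgroup.le_normalizer_map (QuotientGroup.mk' M) ⟨x, x.2, rfl⟩
  let F := ((QuotientGroup.mk' M).comp N.subtype).codRestrict _ hmem
  have hFs : Function.Surjective F := by
    rintro ⟨q, hq⟩
    obtain ⟨n, hn, hnq⟩ := exists_norm_lift P M hq
    exact ⟨⟨n, hn⟩, Subtype.ext hnq⟩
  have hFk : F.ker = M.subgroupOf N := by
    ext x
    rw [MonoidHom.mem_ker, Subgroup.mem_subgroupOf]
    constructor
    · intro h
      have h1 : (QuotientGroup.mk (x : G) : G ⧸ M) = 1 := congrArg Subtype.val h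
      exact (QuotientGroup.eq_one_iff _).mp h1
    · intro h
      exact Subtype.ext ((QuotientGroup.eq_one_iff _).mpr h)
  rw [← roKer_eq F hFs, hFk]

theorem over_trans {G : Type u} [Group G] [Fintype G] {M T : Subgroup G} (hMT : M ≤ T) [Fintype M] [Fintype T] {χ : G → ℂ}
    (hχ : IsCharacter G χ) {ψ : T → ℂ} (hψ : IsIrrCharacter T ψ) {θ : M → ℂ} (hθ : IsIrrCharacter M θ)
    (h1 : classInner (fun t : T => χ t) ψ ≠ 0) (h2 : classInner (resT hMT ψ) θ ≠ 0) :
    classInner (fun m : M => χ m) θ ≠ 0 := by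
  classical
  obtain ⟨m, hm, hexp, -⟩ := char_expand (isCharacter_restrict hχ T)
  have h3 : ∀ φ : IrrCharacter T, ∃ k : ℕ, classInner (resT hMT (φ : T → ℂ)) θ = k := fun φ =>
    (isCharacter_iff.mp (resT_char hMT (irr_isCharacter φ.2))).2 _ hθ
  choose k hk using h3
  have h4 : (fun m : M => χ m) = ∑ φ : IrrCharacter T, (m φ : ℂ) • resT hMT (φ : T → ℂ) := by
    funext x
    have h5 := congrFun hexp ⟨x, hMT x.2⟩
    simp only [Finset.sum_apply, Pi.smul_apply, smul_eq_mul] at h5 ⊢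
    exact h5
  rw [h4, ci_sum_l]
  simp only [ci_smul_l, hk]
  have h5 : ∑ φ : IrrCharacter T, m φ * k φ ≠ 0 := by
    intro h6
    have h7 := (Finset.sum_eq_zero_iff.mp h6) ⟨ψ, hψ⟩ (Finset.mem_univ _)
    rcases Nat.mul_eq_zero.mp h7 with h8 | h8
    · apply h1
      have := hm ⟨ψ, hψ⟩
      rw [h8] at this
      simpa using this
    · apply h2
      have := hk ⟨ψ, hψ⟩
      rw [h8] at this
      simpa using this
  exact_mod_cast h5

/-- constituents of real characters of odd degree -/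
theorem real_of_over {G : Type u} [Group G] [Fintype G] {M : Subgroup G} (hM : M.Normal) [Fintype M] {χ : G → ℂ}
    (hχ : IsIrrCharacter G χ) (hRO : isRO χ) {θ : M → ℂ} (hθ : IsIrrCharacter M θ) (h1 : classInner (fun m : M => χ m) θ ≠ 0) :
    ∀ m, conj (θ m) = θ m := by
  obtain ⟨θ', h2, h3⟩ := exists_real_constituent (isCharacter_restrict (irr_isCharacter hχ) M) ⟨fun g => hRO.1 g, hRO.2⟩
  obtain ⟨x, hx⟩ := constituents_conj hM hχ θ'.2 hθ h3 h1
  intro m
  rw [← hx]
  exact h2.1 _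

theorem sylow_index_odd {G : Type u} [Group G] [Finite G] (P : Sylow 2 G) {T : Subgroup G} (hT : (P : Subgroup G) ≤ T) : Odd T.index := by
  haveI : Fact (Nat.Prime 2) := ⟨Nat.prime_two⟩
  have h1 : T.index ∣ (P : Subgroup G).index := Subgroup.index_dvd_of_le hT
  rw [← Nat.not_even_iff_odd, even_iff_two_dvd]
  intro h2
  exact P.not_dvd_index (dvd_trans h2 h1)

/-- the invariant case -/
theorem ovc_inv {G : Type u} [Group G] [Finite G] [Fact (Nat.Prime 2)] (P : Sylow 2 G) (M : Subgroup G) [hM : M.Normal]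
    (hMP : M ≤ (P : Subgroup G))
    (hIH : ro (G ⧸ M) = ro (Subgroup.normalizer (((P.mapSurjective (QuotientGroup.mk'_surjective M) : Sylow 2 (G ⧸ M)) : Subgroup (G ⧸ M)) : Set (G ⧸ M))))
    {θ : M → ℂ} (hθ : IsIrrCharacter M θ) (hθ1 : θ 1 = 1) (hreal : ∀ m, conj (θ m) = θ m) (hinv : ∀ g, cj hM g θ = θ) :
    ovc G M θ = ovc (Subgroup.normalizer ((P : Subgroup G) : Set G)) (M.subgroupOf _) (toSub (Subgroup.normalizer ((P : Subgroup G) : Set G)) θ) := by
  classical
  haveI := Fintype.ofFinite G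
  haveI := Fintype.ofFinite M
  set N := Subgroup.normalizer ((P : Subgroup G) : Set G) with hN
  haveI := Fintype.ofFinite N
  haveI := Fintype.ofFinite (M.subgroupOf N)
  have hPN : (P : Subgroup G) ≤ N := Subgroup.le_normalizer
  have hMN : M ≤ N := le_trans hMP hPN
  obtain ⟨l, hl⟩ := exists_hom_of_linear (irr_isCharacter hθ) hθ1
  have hl2 : ∀ m, l m * l m = 1 := by
    intro m
    apply Units.ext
    have h1 := hreal m
    have h2 := norm_lin_aux l m
    rw [hl] at h1
    rw [Units.val_mul, Units.val_one]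
    nth_rw 2 [← h1]
    rw [Complex.mul_conj, Complex.normSq_eq_norm_sq, h2]
    simp
  by_cases hex : ∃ χ : IrrCharacter G, isRO (χ : G → ℂ) ∧ ∑ᶠ m : M, (χ : G → ℂ) m * conj (θ m) ≠ 0
  · obtain ⟨χ, hRO, hov⟩ := hex
    rw [over_iff] at hov
    have h1 := restrict_of_invariant hM χ.2 hθ hinv hov
    have h2 : ∀ m : M, (χ : G → ℂ) m = (χ : G → ℂ) 1 * (l m : ℂ) := by
      intro m
      have h3 := congrFun h1 m
      have h4 := congrFun h1 1
      simp only [Pi.smul_apply, smul_eq_mul, hθ1, mul_one] at h3 h4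
      rw [h3, ← h4, hl]; rfl
    obtain ⟨μ, hμ2, hμ⟩ := exists_mu χ.2 hRO M l hl2 h2
    have h3 : θ = fun m : M => (μ (m : G) : ℂ) := funext fun m => by rw [hl, hμ]
    have h4 : toSub N θ = fun m : M.subgroupOf N => ((μ.comp N.subtype) m : ℂ) := by
      rw [h3]; rfl
    rw [h4, h3, ovc_mu hM μ hμ2, ovc_mu (subgroupOf_normal hM N) (μ.comp N.subtype) (fun x => hμ2 x)]
    have h5 := roKer_eq (QuotientGroup.mk' M) (QuotientGroup.mk'_surjective M)
    rw [QuotientGroup.ker_mk'] at h5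
    rw [h5, hIH, ro_norm_quot]
  · have h1 : ovc G M θ = 0 := by
      unfold ovc
      rw [Nat.card_eq_zero]
      exact Or.inl ⟨fun χ => hex ⟨χ.1, χ.2⟩⟩
    have h2 : ovc N (M.subgroupOf N) (toSub N θ) = 0 := by
      unfold ovc
      rw [Nat.card_eq_zero]
      refine Or.inl ⟨fun ψ => hex ?_⟩
      obtain ⟨⟨hr, d, hd, hd1⟩, hov⟩ := ψ.2
      rw [over_iff, ← toSub_resT hMN, ci_toSub hMN] at hov
      have hodd := sylow_index_odd P hPN
      obtain ⟨χ, hχ, hχψ⟩ := exists_real_constituent (isCharacter_ind N (irr_isCharacter ψ.1.2)) ⟨fun g => by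
        rw [ind_real]
        congr 1
        exact funext hr, N.index * d, hodd.mul hd, by rw [ind_one, hd1]; push_cast; ring⟩
      refine ⟨χ, hχ, ?_⟩
      rw [frobenius N _ (irr_classFun χ.2)] at hχψ
      rw [over_iff]
      exact over_trans hMN (irr_isCharacter χ.2) ψ.1.2 hθ (fun h => hχψ (ci_zero_comm h)) hov
    rw [h1, h2]
where
  norm_lin_aux {M' : Type u} [Group M'] [Finite M'] (l : M' →* ℂˣ) (m : M') : ‖(l m : ℂ)‖ = 1 := by
    have h1 : (l m : ℂ) ^ Nat.card M' = 1 := by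
      rw [← Units.val_pow_eq_pow_val, ← map_pow, pow_card_eq_one', map_one, Units.val_one]
    exact Complex.norm_eq_one_of_pow_eq_one h1 Nat.card_pos.ne'

end CfsgLib.RealOdd
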