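import Cfsg.Agent.LibRealOdd3

/-! Real irreducible characters of odd degree, part 4 (seat helper20). -/

set_option autoImplicit false
set_option linter.all false

namespace CfsgLib.RealOdd

open Cfsg CfsgLib.CharBasic CfsgLib.CharIndA CfsgLib.Clifford CfsgLib.CharNorm CfsgLib.CharMore
open scoped ComplexConjugate Pointwise

universe u v

theorem toSub_real {G : Type u} [Group G] {M T : Subgroup G} (hMT : M ≤ T) (θ : M → ℂ) :
    (∀ m, conj (toSub T θ m) = toSub T θ m) ↔ ∀ m, conj (θ m) = θ m := by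
  constructor
  · intro h m
    exact h ⟨⟨m, hMT m.2⟩, Subgroup.mem_subgroupOf.mpr m.2⟩
  · intro h m
    exact h _

theorem ovc_zero_of_not_real {G : Type u} [Group G] [Finite G] {M : Subgroup G} (hM : M.Normal) {θ : M → ℂ} (hθ : IsIrrCharacter M θ)
    (hnr : ¬ ∀ m, conj (θ m) = θ m) : ovc G M θ = 0 := by
  haveI := Fintype.ofFinite G
  haveI := Fintype.ofFinite M
  unfold ovc
  rw [Nat.card_eq_zero]
  refine Or.inl ⟨fun χ => hnr ?_⟩
  exact real_of_over hM χ.1.2 χ.2.1 hθ ((over_iff _ _).mp χ.2.2)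

section Main
variable {G : Type u} [Group G] [Finite G] [Fact (Nat.Prime 2)]

theorem ovc_eq (P : Sylow 2 G) {M : Subgroup G} (hM : M.Normal) (hMP : M ≤ (P : Subgroup G)) (hM1 : M ≠ ⊥)
    (hIH : ∀ (H : Type u) [Group H] [Finite H], Nat.card H < Nat.card G → Group.IsSolvable H → ∀ Q : Sylow 2 H,
      ro H = ro (Subgroup.normalizer ((Q : Subgroup H) : Set H)))
    (hsolv : Group.IsSolvable G) {θ : M → ℂ} (hθ : IsIrrCharacter M θ) (hθ1 : θ 1 = 1)
    (hinv : ∀ x ∈ (P : Subgroup G), cj hM x θ = θ) :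
    ovc G M θ = ovc (Subgroup.normalizer ((P : Subgroup G) : Set G)) (M.subgroupOf _) (toSub (Subgroup.normalizer ((P : Subgroup G) : Set G)) θ) := by
  classical
  haveI := Fintype.ofFinite G
  haveI := Fintype.ofFinite M
  set N := Subgroup.normalizer ((P : Subgroup G) : Set G) with hN
  haveI := Fintype.ofFinite N
  haveI := Fintype.ofFinite (M.subgroupOf N)
  have hPN : (P : Subgroup G) ≤ N := Subgroup.le_normalizer
  have hMN : M ≤ N := le_trans hMP hPN
  by_cases hreal : ∀ m, conj (θ m) = θ m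
  swap
  · rw [ovc_zero_of_not_real hM hθ hreal, ovc_zero_of_not_real (subgroupOf_normal hM N) ((toSub_irr hMN).mpr hθ)
      (fun h => hreal ((toSub_real hMN θ).mp h))]
  set T := inertia hM θ with hT
  have hTmem : ∀ g, g ∈ T ↔ cj hM g θ = θ := fun g => Iff.rfl
  have hPT : (P : Subgroup G) ≤ T := fun x hx => hinv x hx
  have hMT : M ≤ T := le_trans hMP hPT
  have e1 := ovc_clifford hM hθ hreal T hTmem hMT (sylow_index_odd P hPT)
  -- the invariant case
  set PT : Sylow 2 T := P.subtype hPT with hPTdef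
  have hPTc : (PT : Subgroup T) = (P : Subgroup G).subgroupOf T := rfl
  haveI hMTn : (M.subgroupOf T).Normal := subgroupOf_normal hM T
  have hMcard : 1 < Nat.card M := by
    rw [Subgroup.one_lt_card_iff_ne_bot]; exact hM1
  have hlt : Nat.card (T ⧸ M.subgroupOf T) < Nat.card G := by
    have h1 := Subgroup.card_eq_card_quotient_mul_card_subgroup (M.subgroupOf T)
    rw [Nat.card_congr (Subgroup.subgroupOfEquivOfLe hMT).toEquiv] at h1
    have h2 : Nat.card T ≤ Nat.card G := Nat.card_le_card_of_injective _ (Subgroup.subtype_injective T)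
    have h3 : 0 < Nat.card (T ⧸ M.subgroupOf T) := Nat.card_pos
    nlinarith
  haveI := hsolv
  haveI hTs : Group.IsSolvable T := inferInstance
  have hsq : Group.IsSolvable (T ⧸ M.subgroupOf T) := inferInstance
  have e2 := ovc_inv PT (M.subgroupOf T) (by
    intro x hx
    rw [hPTc, Subgroup.mem_subgroupOf]
    exact hMP hx) (hIH _ hlt hsq _) ((toSub_irr hMT).mpr hθ) (by exact hθ1) ((toSub_real hMT θ).mpr hreal) (by
    intro t
    rw [cj_toSub hM]
    congr 1
    exact t.2)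
  set NT := Subgroup.normalizer ((PT : Subgroup T) : Set T) with hNT
  -- the normalizer side
  set T' : Subgroup N := inertia (subgroupOf_normal hM N) (toSub N θ) with hT'
  have hT'mem : ∀ g : N, g ∈ T' ↔ (g : G) ∈ T := by
    intro g
    rw [hT', mem_inertia, cj_toSub hM, hTmem]
    exact ⟨fun h => toSub_inj hMN h, fun h => by rw [h]⟩
  have hNTmem : ∀ g : T, g ∈ NT ↔ (g : G) ∈ N := by
    intro g
    rw [hNT, hN, Subgroup.mem_normalizer_iff, Subgroup.mem_normalizer_iff]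
    constructor
    · intro h x
      constructor
      · intro hx
        have h1 := (h ⟨x, hPT hx⟩).mp (by rw [hPTc, Subgroup.mem_subgroupOf]; exact hx)
        rw [hPTc, Subgroup.mem_subgroupOf] at h1
        exact h1
      · intro hx
        have hxT : x ∈ T := by
          have h2 : x = (g : G)⁻¹ * (g * x * (g : G)⁻¹) * g := by group
          rw [h2]
          exact mul_mem (mul_mem (inv_mem g.2) (hPT hx)) g.2
        have h1 := (h ⟨x, hxT⟩).mpr (by rw [hPTc, Subgroup.mem_subgroupOf]; exact hx)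
        rw [hPTc, Subgroup.mem_subgroupOf] at h1
        exact h1
    · intro h x
      rw [hPTc, Subgroup.mem_subgroupOf, Subgroup.mem_subgroupOf]
      exact h x
  have hPNs : (P : Subgroup G).subgroupOf N ≤ T' := by
    intro x hx
    rw [hT'mem]
    exact hPT (Subgroup.mem_subgroupOf.mp hx)
  have hT'odd : Odd T'.index := by
    exact sylow_index_odd (P.subtype hPN) hPNs
  have hMT' : M.subgroupOf N ≤ T' := by
    intro x hx
    rw [hT'mem]
    exact hMT (Subgroup.mem_subgroupOf.mp hx)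
  have e3 := ovc_clifford (subgroupOf_normal hM N) ((toSub_irr hMN).mpr hθ) ((toSub_real hMN θ).mpr hreal) T' (fun g => Iff.rfl) hMT' hT'odd
  rw [e1, e2, e3]
  -- the isomorphism
  let e : NT ≃* T' :=
    { toFun := fun x => ⟨⟨((x : T) : G), (hNTmem x).mp x.2⟩, (hT'mem _).mpr (x : T).2⟩
      invFun := fun x => ⟨⟨((x : N) : G), (hT'mem x).mp x.2⟩, (hNTmem _).mpr (x : N).2⟩
      left_inv := fun x => rfl
      right_inv := fun x => rfl
      map_mul' := fun x y => rfl }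
  exact ovc_congr e _ _ (fun x => Iff.rfl) _ _ (fun m => rfl)

/-- invariant nontrivial linear characters of `M` -/
def Lam (P : Sylow 2 G) {M : Subgroup G} (hM : M.Normal) : Type u :=
  {θ : IrrCharacter M // (θ : M → ℂ) ≠ (fun _ => 1) ∧ ∀ x ∈ (P : Subgroup G), cj hM x (θ : M → ℂ) = θ}

/-- conjugacy under the normalizer -/
def LamS (P : Sylow 2 G) {M : Subgroup G} (hM : M.Normal) : Setoid (Lam P hM) where
  r θ θ' := ∃ n ∈ Subgroup.normalizer ((P : Subgroup G) : Set G), cj hM n (θ.1 : M → ℂ) = θ'.1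
  iseqv :=
    { refl := fun θ => ⟨1, one_mem _, cj_one hM _⟩
      symm := by
        rintro θ θ' ⟨n, hn, h⟩
        refine ⟨n⁻¹, inv_mem hn, ?_⟩
        rw [← h, cj_cj, mul_inv_cancel, cj_one]
      trans := by
        rintro θ θ' θ'' ⟨n, hn, h⟩ ⟨n', hn', h'⟩
        refine ⟨n * n', mul_mem hn hn', ?_⟩
        rw [← h', ← h, cj_cj] }

instance (P : Sylow 2 G) {M : Subgroup G} (hM : M.Normal) : Finite (Lam P hM) := by
  haveI := Fintype.ofFinite M
  unfold Lam
  infer_instance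

theorem exists_inv_K (P : Sylow 2 G) {M : Subgroup G} (hM : M.Normal) [Fintype M] (K : Subgroup G) [Fintype K] (hPK : (P : Subgroup G) ≤ K)
    (hMK : M ≤ K) {χ : K → ℂ} (hχ : IsIrrCharacter K χ) {d : ℕ} (hd : Odd d) (hd1 : χ 1 = d) :
    ∃ θ : M → ℂ, IsIrrCharacter M θ ∧ classInner (resT hMK χ) θ ≠ 0 ∧ ∀ x ∈ (P : Subgroup G), cj hM x θ = θ := by
  classical
  haveI := Fintype.ofFinite G
  haveI := Fintype.ofFinite (M.subgroupOf K)
  obtain ⟨θ₀, hθ₀, h0⟩ := exists_below (M.subgroupOf K) hχ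
  obtain ⟨g, hg⟩ := exists_inv (subgroupOf_normal hM K) hχ hd hd1 (P := (P : Subgroup G).subgroupOf K)
    ((P.subtype hPK).isPGroup') hθ₀ h0
  -- transport to `M`
  let θ₁ : M → ℂ := fun m => cj (subgroupOf_normal hM K) g θ₀ ⟨⟨m, hMK m.2⟩, Subgroup.mem_subgroupOf.mpr m.2⟩
  have h1 : toSub K θ₁ = cj (subgroupOf_normal hM K) g θ₀ := by funext x; rfl
  have h2 : IsIrrCharacter M θ₁ := by
    rw [← toSub_irr hMK, h1]
    exact cj_irr _ g hθ₀
  refine ⟨θ₁, h2, ?_, fun x hx => ?_⟩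
  · rw [← ci_toSub hMK, toSub_resT, h1]
    have h3 := mult_cj (subgroupOf_normal hM K) (irr_classFun hχ) θ₀ g
    rw [h3]; exact h0
  · apply toSub_inj hMK
    have h3 := cj_toSub hM (T := K) ⟨x, hPK hx⟩ θ₁
    rw [← h3, h1]
    exact hg ⟨x, hPK hx⟩ (Subgroup.mem_subgroupOf.mpr hx)

theorem card_split (P : Sylow 2 G) {M : Subgroup G} (hM : M.Normal) (hMP : M ≤ (P : Subgroup G)) (K : Subgroup G)
    (hNK : Subgroup.normalizer ((P : Subgroup G) : Set G) ≤ K) [Fintype (Quotient (LamS P hM))] :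
    ro K = roKer K (M.subgroupOf K) + ∑ ω : Quotient (LamS P hM), ovc K (M.subgroupOf K) (toSub K (ω.out.1 : M → ℂ)) := by
  classical
  haveI := Fintype.ofFinite G
  haveI := Fintype.ofFinite M
  haveI := Fintype.ofFinite K
  haveI := Fintype.ofFinite (M.subgroupOf K)
  have hPK : (P : Subgroup G) ≤ K := le_trans Subgroup.le_normalizer hNK
  have hMK : M ≤ K := le_trans hMP hPK
  have hov : ∀ (ψ : K → ℂ) (θ : M → ℂ), (∑ᶠ m : M.subgroupOf K, ψ m * conj (toSub K θ m) ≠ 0) ↔ classInner (resT hMK ψ) θ ≠ 0 := by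
    intro ψ θ
    rw [over_iff, ← ci_toSub hMK, toSub_resT]
  -- split
  let B := {χ : IrrCharacter K // isRO (χ : K → ℂ) ∧ ¬ ∀ m ∈ M.subgroupOf K, (χ : K → ℂ) m = (χ : K → ℂ) 1}
  have hsplit : ro K = roKer K (M.subgroupOf K) + Nat.card B := by
    unfold ro roKer
    rw [← Nat.card_sum]
    apply Nat.card_congr
    refine Equiv.ofBijective (fun χ => if h : ∀ m ∈ M.subgroupOf K, (χ.1 : K → ℂ) m = (χ.1 : K → ℂ) 1 then Sum.inl ⟨χ.1, χ.2, h⟩
      else Sum.inr ⟨χ.1, χ.2, h⟩) ⟨?_, ?_⟩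
    · intro χ χ' h
      simp only at h
      split_ifs at h
      · have h1 := Sum.inl_injective h
        exact Subtype.ext (congrArg (fun x => x.1) h1)
      · have h1 := Sum.inr_injective h
        exact Subtype.ext (congrArg (fun x => x.1) h1)
    · rintro (χ | χ)
      · exact ⟨⟨χ.1, χ.2.1⟩, by simp only; rw [dif_pos χ.2.2]⟩
      · exact ⟨⟨χ.1, χ.2.1⟩, by simp only; rw [dif_neg χ.2.2]⟩
  rw [hsplit]
  congr 1
  -- choice of an invariant constituent
  have hex : ∀ χ : B, ∃ θ : Lam P hM, classInner (resT hMK (χ.1 : K → ℂ)) (θ.1 : M → ℂ) ≠ 0 := by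
    intro χ
    obtain ⟨⟨hr, d, hd, hd1⟩, hk⟩ := χ.2
    obtain ⟨θ, h1, h2, h3⟩ := exists_inv_K P hM K hPK hMK χ.1.2 hd hd1
    refine ⟨⟨⟨θ, h1⟩, ?_, h3⟩, h2⟩
    intro h4
    apply hk
    have h4' : θ = fun _ => 1 := h4
    have h5 : classInner (fun x : M.subgroupOf K => (χ.1 : K → ℂ) x) (fun _ => 1) ≠ 0 := by
      have h6 : (fun _ => 1 : M.subgroupOf K → ℂ) = toSub K θ := by rw [h4']; rfl
      rw [h6, ← toSub_resT hMK, ci_toSub hMK]
      exact h2
    have h7 := restrict_of_invariant (subgroupOf_normal hM K) χ.1.2 (isIrrCharacter_one (G := M.subgroupOf K)) (fun g => rfl) h5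
    intro m hm
    have h8 := congrFun h7 ⟨m, hm⟩
    have h9 := congrFun h7 1
    simp only [Pi.smul_apply, smul_eq_mul, mul_one] at h8 h9
    rw [h8, ← h9]; rfl
  choose l hl using hex
  have hchar : ∀ (χ : B) (θ : Lam P hM), classInner (resT hMK (χ.1 : K → ℂ)) (θ.1 : M → ℂ) ≠ 0 ↔
      (Quotient.mk (LamS P hM) (l χ)) = Quotient.mk (LamS P hM) θ := by
    intro χ θ
    rw [Quotient.eq]
    constructor
    · intro h1
      have h2 : classInner (fun x : M.subgroupOf K => (χ.1 : K → ℂ) x) (toSub K ((l χ).1 : M → ℂ)) ≠ 0 := by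
        rw [← toSub_resT hMK, ci_toSub hMK]; exact hl χ
      have h3 : classInner (fun x : M.subgroupOf K => (χ.1 : K → ℂ) x) (toSub K (θ.1 : M → ℂ)) ≠ 0 := by
        rw [← toSub_resT hMK, ci_toSub hMK]; exact h1
      obtain ⟨k, hk⟩ := constituents_conj (subgroupOf_normal hM K) χ.1.2 ((toSub_irr hMK).mpr (l χ).1.2) ((toSub_irr hMK).mpr θ.1.2) h2 h3
      rw [cj_toSub hM] at hk
      have hk' := toSub_inj hMK hk
      obtain ⟨n, hn, hn'⟩ := conj_norm hM (θ := ((l χ).1 : M → ℂ)) P (g := (k : G)) (l χ).2.2 (by rw [hk']; exact θ.2.2)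
      exact ⟨n, hn, by rw [hn', hk']⟩
    · rintro ⟨n, hn, h1⟩
      rw [← h1, ← ci_toSub hMK, ← cj_toSub hM (T := K) ⟨n, hNK hn⟩, toSub_resT,
        mult_cj (subgroupOf_normal hM K) (irr_classFun χ.1.2), ← toSub_resT hMK, ci_toSub hMK]
      exact hl χ
  have hfib : Nat.card B = ∑ ω : Quotient (LamS P hM), Nat.card {χ : B // Quotient.mk (LamS P hM) (l χ) = ω} := by
    rw [← Nat.card_sigma]
    exact Nat.card_congr (Equiv.sigmaFiberEquiv (fun χ : B => Quotient.mk (LamS P hM) (l χ))).symm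
  rw [hfib]
  refine Finset.sum_congr rfl fun ω _ => ?_
  unfold ovc
  apply Nat.card_congr
  refine Equiv.ofBijective (fun χ => ⟨χ.1.1, χ.1.2.1, ?_⟩) ⟨?_, ?_⟩
  · rw [hov, hchar χ.1 ω.out, χ.2, Quotient.out_eq]
  · intro χ χ' h
    apply Subtype.ext; apply Subtype.ext
    exact congrArg (fun x => x.1) h
  · rintro ⟨χ, h1, h2⟩
    rw [hov] at h2
    have h3 : ¬ ∀ m ∈ M.subgroupOf K, (χ : K → ℂ) m = (χ : K → ℂ) 1 := by
      intro h4
      apply h2
      have h5 : resT hMK (χ : K → ℂ) = (χ : K → ℂ) 1 • (fun _ => 1 : M → ℂ) := by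
        funext m
        show (χ : K → ℂ) ⟨m, hMK m.2⟩ = (χ : K → ℂ) 1 * 1
        rw [h4 ⟨m, hMK m.2⟩ (Subgroup.mem_subgroupOf.mpr m.2), mul_one]
      rw [h5, ci_smul_l, irr_inner_ne isIrrCharacter_one ω.out.1.2 (fun hh => ω.out.2.1 hh.symm), mul_zero]
    refine ⟨⟨⟨χ, h1, h3⟩, ?_⟩, rfl⟩
    have h4 := (hchar ⟨χ, h1, h3⟩ ω.out).mp h2
    rw [h4, Quotient.out_eq]

end Main

end CfsgLib.RealOdd
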