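import Cfsg.Agent.LibRealOdd4
import Cfsg.Agent.LibSolvBasic

/-! Real irreducible characters of odd degree, part 5 (seat helper20). -/

set_option autoImplicit false
set_option linter.all false

namespace CfsgLib.RealOdd

open Cfsg CfsgLib.CharBasic CfsgLib.CharIndA CfsgLib.Clifford CfsgLib.CharNorm CfsgLib.CharMore
open scoped ComplexConjugate Pointwise

universe u v

theorem exists_abelian_normal {G : Type u} [Group G] [hs : Group.IsSolvable G] (hne : Nontrivial G) :
    ∃ A : Subgroup G, A.Normal ∧ A ≠ ⊥ ∧ ∀ a ∈ A, ∀ b ∈ A, a * b = b * a := by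
  classical
  obtain ⟨n, hn⟩ := hs.solvable
  have hex : ∃ n, derivedSeries G n = ⊥ := ⟨n, hn⟩
  have h1 := Nat.find_spec hex
  have h0 : Nat.find hex ≠ 0 := by
    intro h0
    rw [h0, derivedSeries_zero] at h1
    exact (top_ne_bot : (⊤ : Subgroup G) ≠ ⊥) h1
  obtain ⟨k, hk⟩ := Nat.exists_eq_succ_of_ne_zero h0
  have h2 : derivedSeries G k ≠ ⊥ := Nat.find_min hex (by omega)
  refine ⟨derivedSeries G k, derivedSeries_normal G k, h2, fun a ha b hb => ?_⟩
  rw [hk, derivedSeries_succ, Subgroup.commutator_eq_bot_iff_le_centralizer] at h1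
  exact (Subgroup.mem_centralizer_iff.mp (h1 ha) b hb).symm

theorem abelian_two_group {G : Type u} [Group G] [Finite G] [Fact (Nat.Prime 2)] (hO : pPrimeCore 2 G = ⊥) {A : Subgroup G} (hA : A.Normal)
    (hab : ∀ a ∈ A, ∀ b ∈ A, a * b = b * a) : IsPGroup 2 A := by
  classical
  have h1 : ∀ {d : ℕ}, d.Prime → d ∣ Nat.card A → d = 2 := by
    intro d hd hdA
    by_contra hne
    haveI : Fact d.Prime := ⟨hd⟩
    obtain ⟨S⟩ : Nonempty (Sylow d A) := inferInstance
    have hSn : (S : Subgroup A).Normal := ⟨fun y hy g => by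
      have : g * y * g⁻¹ = y := by
        rw [show g * y = y * g from Subtype.ext (hab g g.2 y y.2), mul_inv_cancel_right]
      rw [this]; exact hy⟩
    haveI : (S : Subgroup A).Characteristic := S.characteristic_of_normal hSn
    have h2 : ((S : Subgroup A).map A.subtype).Normal := ConjAct.normal_of_characteristic_of_normal
    have h3 : Nat.card ((S : Subgroup A).map A.subtype) = Nat.card (S : Subgroup A) :=
      (Nat.card_congr ((S : Subgroup A).equivMapOfInjective _ (Subgroup.subtype_injective A)).toEquiv).symm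
    have h4 : (Nat.card ((S : Subgroup A).map A.subtype)).Coprime 2 := by
      rw [h3, S.card_eq_multiplicity]
      apply Nat.Coprime.pow_left
      exact (Nat.coprime_primes hd Nat.prime_two).mpr hne
    have h5 := CfsgLib.Cores.le_pPrimeCore h2 h4
    rw [hO, le_bot_iff, Subgroup.map_eq_bot_iff_of_injective _ (Subgroup.subtype_injective A)] at h5
    have h6 := S.dvd_card_of_dvd_card hdA
    rw [h5, Subgroup.card_bot] at h6
    exact hd.one_lt.ne' (Nat.dvd_one.mp h6)
  exact IsPGroup.of_card (Nat.eq_prime_pow_of_unique_prime_dvd Nat.card_pos.ne' h1)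

theorem toSub_top_ovc {G : Type u} [Group G] (M : Subgroup G) (θ : M → ℂ) : ovc (⊤ : Subgroup G) (M.subgroupOf ⊤) (toSub ⊤ θ) = ovc G M θ :=
  ovc_congr Subgroup.topEquiv _ _ (fun x => Iff.rfl) _ _ (fun m => rfl)

theorem ro_eq (n : ℕ) : ∀ (G : Type u) [Group G] [Finite G], Nat.card G = n → Group.IsSolvable G → ∀ P : Sylow 2 G,
    ro G = ro (Subgroup.normalizer ((P : Subgroup G) : Set G)) := by
  classical
  haveI : Fact (Nat.Prime 2) := ⟨Nat.prime_two⟩
  induction n using Nat.strong_induction_on with
  | _ n ih =>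
  intro G _ _ hn hs P
  haveI := hs
  haveI := Fintype.ofFinite G
  by_cases hO : pPrimeCore 2 G = ⊥
  swap
  · -- an odd normal subgroup
    obtain ⟨M, hM⟩ : ∃ M, M = pPrimeCore 2 G := ⟨_, rfl⟩
    haveI hMn : M.Normal := by rw [hM]; infer_instance
    have hodd : Odd (Nat.card M) := by
      rw [hM]; exact Nat.coprime_two_right.mp (CfsgLib.Cores.pPrimeCore_coprime (G := G) 2)
    have hMne : M ≠ ⊥ := by rw [hM]; exact hO
    have h1 := roKer_eq (QuotientGroup.mk' M) (QuotientGroup.mk'_surjective M)
    rw [QuotientGroup.ker_mk', roKer_of_odd hMn hodd] at h1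
    have hlt : Nat.card (G ⧸ M) < n := by rw [← hn]; exact CfsgLib.SolvBasic.card_quotient_lt M hMne
    rw [h1, ih _ hlt (G ⧸ M) rfl inferInstance (P.mapSurjective (QuotientGroup.mk'_surjective M)), ro_norm_quot]
    apply roKer_of_odd (subgroupOf_normal hMn _)
    apply Odd.of_dvd_nat hodd
    exact Subgroup.card_comap_dvd_of_injective M (Subgroup.normalizer ((P : Subgroup G) : Set G)).subtype (Subgroup.subtype_injective _)
  · by_cases hnt : Nontrivial G
    swap
    · have hsub : Subsingleton G := not_nontrivial_iff_subsingleton.mp hnt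
      have h1 : Subgroup.normalizer ((P : Subgroup G) : Set G) = ⊤ := Subsingleton.elim _ _
      rw [h1]
      exact ro_congr Subgroup.topEquiv.symm
    · obtain ⟨M, hM, hMne, hab⟩ := exists_abelian_normal hnt
      haveI := hM
      have hM2 := abelian_two_group hO hM hab
      have hMP : M ≤ (P : Subgroup G) := CfsgLib.Cores.normal_le_sylow hM hM2 P
      set N := Subgroup.normalizer ((P : Subgroup G) : Set G) with hN
      haveI : Fintype (Quotient (LamS P hM)) := Fintype.ofFinite _
      have e1 := card_split P hM hMP ⊤ le_top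
      have e2 := card_split P hM hMP N le_rfl
      have hlt : Nat.card (G ⧸ M) < n := by rw [← hn]; exact CfsgLib.SolvBasic.card_quotient_lt M hMne
      have e3 : roKer (⊤ : Subgroup G) (M.subgroupOf ⊤) = roKer N (M.subgroupOf N) := by
        have h1 : Function.Surjective ((QuotientGroup.mk' M).comp (⊤ : Subgroup G).subtype) := by
          intro q
          obtain ⟨g, rfl⟩ := QuotientGroup.mk_surjective q
          exact ⟨⟨g, trivial⟩, rfl⟩
        have h2 : ((QuotientGroup.mk' M).comp (⊤ : Subgroup G).subtype).ker = M.subgroupOf ⊤ := by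
          ext x
          rw [MonoidHom.mem_ker, Subgroup.mem_subgroupOf]
          exact QuotientGroup.eq_one_iff _
        rw [← h2, roKer_eq _ h1, ih _ hlt (G ⧸ M) rfl inferInstance (P.mapSurjective (QuotientGroup.mk'_surjective M)), ro_norm_quot]
      rw [ro_congr (Subgroup.topEquiv (G := G)).symm, e1, e2, e3]
      congr 1
      refine Finset.sum_congr rfl fun ω _ => ?_
      rw [toSub_top_ovc]
      exact ovc_eq P hM hMP hMne (fun H _ _ hlt' hs' Q => ih _ (by rw [← hn]; exact hlt') H rfl hs' Q) hs ω.out.1.2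
        (irr_degree_one_of_comm (fun a b => Subtype.ext (hab a a.2 b b.2)) ω.out.1.2) ω.out.2.2

end CfsgLib.RealOdd
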