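import Cfsg.Agent.LibRealOdd5
import Cfsg.Agent.LibQuot19

/-! Real irreducible characters of odd degree, part 6 (seat helper20). -/

set_option autoImplicit false
set_option linter.all false

namespace CfsgLib.RealOdd

open Cfsg CfsgLib.CharBasic CfsgLib.CharIndA CfsgLib.Clifford CfsgLib.CharNorm CfsgLib.CharMore
open scoped ComplexConjugate Pointwise

universe u v

/-- all linear characters are real -/
def Lin (P : Type u) [Group P] : Prop := ∀ ν : P →* ℂˣ, ∀ y, ν y * ν y = 1

theorem Lin.of_surj {P : Type u} [Group P] {Q : Type v} [Group Q] (h : Lin P) (f : P →* Q) (hf : Function.Surjective f) : Lin Q := by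
  intro ν y
  obtain ⟨x, rfl⟩ := hf y
  exact h (ν.comp f) x

theorem exists_abelian_pgroup {G : Type u} [Group G] [Finite G] [hs : Group.IsSolvable G] (hne : Nontrivial G) :
    ∃ (p : ℕ) (M : Subgroup G), p.Prime ∧ M.Normal ∧ M ≠ ⊥ ∧ IsPGroup p M ∧ ∀ a ∈ M, ∀ b ∈ M, a * b = b * a := by
  classical
  obtain ⟨A, hA, hAne, hab⟩ := exists_abelian_normal hne
  have h1 : Nat.card A ≠ 1 := by
    intro h
    exact hAne (Subgroup.card_eq_one.mp h)
  obtain ⟨p, hp, hpA⟩ := Nat.exists_prime_and_dvd h1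
  haveI : Fact p.Prime := ⟨hp⟩
  haveI := hA
  obtain ⟨S⟩ : Nonempty (Sylow p A) := inferInstance
  have hSn : (S : Subgroup A).Normal := ⟨fun y hy g => by
    have : g * y * g⁻¹ = y := by
      rw [show g * y = y * g from Subtype.ext (hab g g.2 y y.2), mul_inv_cancel_right]
    rw [this]; exact hy⟩
  haveI : (S : Subgroup A).Characteristic := S.characteristic_of_normal hSn
  have h2 : ((S : Subgroup A).map A.subtype).Normal := ConjAct.normal_of_characteristic_of_normal
  refine ⟨p, (S : Subgroup A).map A.subtype, hp, h2, ?_, S.isPGroup'.map _, ?_⟩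
  · intro h5
    rw [Subgroup.map_eq_bot_iff_of_injective _ (Subgroup.subtype_injective A)] at h5
    have h6 := S.dvd_card_of_dvd_card hpA
    rw [h5, Subgroup.card_bot] at h6
    exact hp.one_lt.ne' (Nat.dvd_one.mp h6)
  · rintro _ ⟨a, -, rfl⟩ _ ⟨b, -, rfl⟩
    exact hab a a.2 b b.2

/-- the determinant of an odd degree character over an invariant linear character -/
theorem exists_det {H : Type u} [Group H] [Fintype H] {ψ : H → ℂ} (hψ : IsIrrCharacter H ψ) {d : ℕ} (hd0 : d ≠ 0) (hd1 : ψ 1 = d) (M : Subgroup H)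
    (l : M →* ℂˣ) (hinv : ∀ m : M, ψ m = ψ 1 * (l m : ℂ)) :
    ∃ μ : H →* ℂˣ, ∀ m : M, μ m = l m ^ d := by
  obtain ⟨n, ρ, hρ, rfl⟩ := hψ
  have hn : n = d := by
    rw [Representation.char_one] at hd1
    have : Module.finrank ℂ (Fin n → ℂ) = n := by simp
    rw [this] at hd1
    exact_mod_cast hd1
  subst hn
  have hfin : Module.finrank ℂ (Fin n → ℂ) = n := by simp
  obtain ⟨μ, hμ⟩ := CfsgLib.Extend.detChar_irr (isIrrCharacter_character ρ)
  have h1 := CfsgLib.Extend.detChar_eq ρ
  have h2 : ∀ g, (μ g : ℂ) = LinearMap.det (ρ g) := fun g => by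
    have h3 := congrFun hμ g
    rw [h1] at h3
    exact h3.symm
  refine ⟨μ, fun m => ?_⟩
  apply Units.ext
  rw [h2]
  have h6 : ‖(l m : ℂ)‖ = 1 := ovc_inv.norm_lin_aux l m
  have h7 : ‖ρ.character (m : H)‖ = (Module.finrank ℂ (Fin n → ℂ) : ℝ) := by
    rw [hinv, hd1, norm_mul, h6, mul_one, hfin]; simp
  obtain ⟨ω, hω⟩ := (norm_character_eq_iff ρ _).mp h7
  have h8 : ω = l m := by
    have h9 := hinv m
    rw [hd1, Representation.character, hω, map_smul, LinearMap.trace_id, hfin, smul_eq_mul] at h9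
    have hn0 : (n : ℂ) ≠ 0 := by exact_mod_cast hd0
    rw [mul_comm] at h9
    exact mul_left_cancel₀ hn0 h9
  rw [hω, h8, LinearMap.det_smul, LinearMap.det_id, mul_one, hfin, Units.val_pow_eq_pow_val]

section
variable {G : Type u} [Group G] [Finite G] [Fact (Nat.Prime 2)]

theorem norm_quot (P : Sylow 2 G) (M : Subgroup G) [hM : M.Normal] (hN : Subgroup.normalizer ((P : Subgroup G) : Set G) ≤ P) :
    Subgroup.normalizer (((P.mapSurjective (QuotientGroup.mk'_surjective M) : Sylow 2 (G ⧸ M)) : Subgroup (G ⧸ M)) : Set (G ⧸ M)) ≤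
      (P.mapSurjective (QuotientGroup.mk'_surjective M) : Sylow 2 (G ⧸ M)) := by
  intro q hq
  obtain ⟨n, hn, rfl⟩ := exists_norm_lift P M hq
  have h1 : ((P.mapSurjective (QuotientGroup.mk'_surjective M) : Sylow 2 (G ⧸ M)) : Subgroup (G ⧸ M)) = (P : Subgroup G).map (QuotientGroup.mk' M) :=
    Sylow.coe_mapSurjective _ _
  rw [h1]
  exact ⟨n, hN hn, rfl⟩

theorem lin_quot (P : Sylow 2 G) (M : Subgroup G) [hM : M.Normal] (hL : Lin (P : Subgroup G)) :
    Lin ((P.mapSurjective (QuotientGroup.mk'_surjective M) : Sylow 2 (G ⧸ M)) : Subgroup (G ⧸ M)) := by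
  have h1 : ((P.mapSurjective (QuotientGroup.mk'_surjective M) : Sylow 2 (G ⧸ M)) : Subgroup (G ⧸ M)) = (P : Subgroup G).map (QuotientGroup.mk' M) :=
    Sylow.coe_mapSurjective _ _
  rw [h1]
  exact hL.of_surj ((QuotientGroup.mk' M).subgroupMap (P : Subgroup G)) ((QuotientGroup.mk' M).subgroupMap_surjective _)

/-- an invariant linear character is trivial if there are no fixed points -/
theorem inv_trivial {P M : Subgroup G} (hPN : ∀ x ∈ P, ∀ m ∈ M, x * m * x⁻¹ ∈ M) (hab : ∀ a ∈ M, ∀ b ∈ M, a * b = b * a)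
    (hcop : (Nat.card P).Coprime (Nat.card M)) (hfix : ∀ m ∈ M, (∀ x ∈ P, x * m * x⁻¹ = m) → m = 1) (l : M →* ℂˣ)
    (hinv : ∀ x (hx : x ∈ P) (m : M), l ⟨x * m * x⁻¹, hPN x hx m m.2⟩ = l m) (m : M) : l m = 1 := by
  classical
  haveI := Fintype.ofFinite P
  letI cg : CommGroup M := { (inferInstance : Group M) with mul_comm := fun a b => Subtype.ext (hab a a.2 b b.2) }
  let c : P → M →* M := fun k =>
    { toFun := fun x => ⟨k * x * (k : G)⁻¹, hPN k k.2 x x.2⟩
      map_one' := Subtype.ext (by simp)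
      map_mul' := fun x y => Subtype.ext (by simp [mul_assoc]) }
  have hc : ∀ k x, (c k x : G) = k * x * (k : G)⁻¹ := fun k x => rfl
  set z : M := ∏ h : P, c h m with hz
  have hz1 : z = 1 := by
    apply Subtype.ext
    apply hfix z z.2
    intro x hx
    have h1 : c ⟨x, hx⟩ z = z := by
      rw [hz, map_prod]
      refine Fintype.prod_equiv (Equiv.mulLeft (⟨x, hx⟩ : P)) _ _ fun h => ?_
      apply Subtype.ext
      simp only [hc, Equiv.coe_mulLeft, Subgroup.coe_mul, mul_inv_rev]
      group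
    exact congrArg Subtype.val h1
  have h2 : l m ^ Nat.card P = 1 := by
    have h3 := congrArg l hz1
    rw [hz, map_prod, map_one] at h3
    have h4 : ∀ h : P, l (c h m) = l m := fun h => hinv h h.2 m
    simp only [h4, Finset.prod_const, Finset.card_univ, ← Nat.card_eq_fintype_card] at h3
    exact h3
  have h3 : l m ^ Nat.card M = 1 := by rw [← map_pow, pow_card_eq_one', map_one]
  have h4 := pow_gcd_eq_one.mpr ⟨h2, h3⟩
  rw [hcop.gcd_eq_one, pow_one] at h4
  exact h4

end

/-- reality of odd degree characters -/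
theorem real_of (n : ℕ) : ∀ (G : Type u) [Group G] [Finite G], Nat.card G = n → Group.IsSolvable G → ∀ P : Sylow 2 G,
    Lin (P : Subgroup G) → Subgroup.normalizer ((P : Subgroup G) : Set G) ≤ P → ∀ χ : G → ℂ, IsIrrCharacter G χ → ∀ d : ℕ, Odd d → χ 1 = d →
    ∀ g, conj (χ g) = χ g := by
  classical
  haveI : Fact (Nat.Prime 2) := ⟨Nat.prime_two⟩
  induction n using Nat.strong_induction_on with
  | _ n ih =>
  intro G _ _ hn hs P hL hN χ hχ d hd hd1
  haveI := hs
  haveI := Fintype.ofFinite G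
  by_cases hnt : Nontrivial G
  swap
  · have hsub : Subsingleton G := not_nontrivial_iff_subsingleton.mp hnt
    intro g
    rw [Subsingleton.elim g 1, hd1]; simp
  obtain ⟨p, M, hp, hM, hMne, hMp, hab⟩ := exists_abelian_pgroup hnt
  haveI := hM
  haveI := Fintype.ofFinite M
  have habM : ∀ a b : M, a * b = b * a := fun a b => Subtype.ext (hab a a.2 b b.2)
  -- an invariant constituent
  obtain ⟨θ₀, hθ₀, h0⟩ := exists_below M hχ
  obtain ⟨g, hg⟩ := exists_inv hM hχ hd hd1 P.isPGroup' hθ₀ h0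
  set θ := cj hM g θ₀ with hθdef
  have hθ : IsIrrCharacter M θ := cj_irr hM g hθ₀
  have hover : classInner (fun m : M => χ m) θ ≠ 0 := by rw [hθdef, mult_cj hM (irr_classFun hχ)]; exact h0
  have hθ1 : θ 1 = 1 := irr_degree_one_of_comm habM hθ
  obtain ⟨l, hl⟩ := exists_hom_of_linear (irr_isCharacter hθ) hθ1
  -- deflation
  have hdefl : ∀ (H : Type u) [Group H] [Finite H] (Q : Sylow 2 H) (K : Subgroup H) [K.Normal] (hK : Nat.card (H ⧸ K) < n) (hsH : Group.IsSolvable H)
      (hLQ : Lin (Q : Subgroup H)) (hNQ : Subgroup.normalizer ((Q : Subgroup H) : Set H) ≤ Q) (φ : H → ℂ) (hφ : IsIrrCharacter H φ) (e : ℕ)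
      (he : Odd e) (he1 : φ 1 = e) (hker : ∀ k ∈ K, φ k = φ 1), ∀ x, conj (φ x) = φ x := by
    intro H _ _ Q K _ hK hsH hLQ hNQ φ hφ e he he1 hker x
    haveI := hsH
    haveI := Fintype.ofFinite H
    obtain ⟨φ', h1, h2⟩ := CfsgLib.Quot19.irr_deflate K hφ hker
    rw [← h2]
    exact ih _ hK (H ⧸ K) rfl inferInstance (Q.mapSurjective (QuotientGroup.mk'_surjective K)) (lin_quot Q K hLQ) (norm_quot Q K hNQ)
      φ' h1 e he (by rw [← he1, ← h2]; rfl) _
  have hlt : Nat.card (G ⧸ M) < n := by rw [← hn]; exact CfsgLib.SolvBasic.card_quotient_lt M hMne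
  by_cases hp2 : p = 2
  · subst hp2
    have hMP : M ≤ (P : Subgroup G) := CfsgLib.Cores.normal_le_sylow hM hMp P
    set T := inertia hM θ with hT
    have hTmem : ∀ g, g ∈ T ↔ cj hM g θ = θ := fun g => Iff.rfl
    have hPT : (P : Subgroup G) ≤ T := fun x hx => hg x hx
    have hMT : M ≤ T := le_trans hMP hPT
    haveI := Fintype.ofFinite T
    obtain ⟨ψ, hψ, hψov, hψind, -⟩ := clifford_corr_surj hM hMT hθ hTmem hχ hover
    obtain ⟨e, he0, he1⟩ := irr_one_nat hψ
    have heodd : Odd e := by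
      have h2 := congrFun hψind 1
      rw [ind_one, he1, hd1] at h2
      have h3 : T.index * e = d := by exact_mod_cast h2
      rw [← h3] at hd
      exact (Nat.odd_mul.mp hd).2
    have hres := resT_of_invariant hM hMT hψ hθ (fun t ht => ht) hψov
    have hψl : ∀ m : M, ψ ⟨m, hMT m.2⟩ = ψ 1 * (l m : ℂ) := by
      intro m
      have h3 := congrFun hres m
      have h4 := congrFun hres 1
      simp only [Pi.smul_apply, smul_eq_mul, hθ1, mul_one] at h3 h4
      have h5 : resT hMT ψ m = ψ ⟨m, hMT m.2⟩ := rfl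
      have h6 : resT hMT ψ 1 = ψ 1 := rfl
      rw [← h5, h3, ← h4, h6, hl]
    set MT := M.subgroupOf T with hMTdef
    haveI : MT.Normal := subgroupOf_normal hM T
    let lT : MT →* ℂˣ := l.comp (Subgroup.subgroupOfEquivOfLe hMT).toMonoidHom
    obtain ⟨ν, hν⟩ := exists_det hψ (d := e) (by omega) he1 MT lT (fun m => hψl ⟨((m : T) : G), m.2⟩)
    set PT : Sylow 2 T := P.subtype hPT with hPTdef
    have hLT : Lin (PT : Subgroup T) := hL.of_surj (Subgroup.subgroupOfEquivOfLe hPT).symm.toMonoidHom (Subgroup.subgroupOfEquivOfLe hPT).symm.surjective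
    have hNT : Subgroup.normalizer ((PT : Subgroup T) : Set T) ≤ PT := by
      intro x hx
      show x ∈ (P : Subgroup G).subgroupOf T
      rw [Subgroup.mem_subgroupOf]
      apply hN
      rw [Subgroup.mem_normalizer_iff]
      intro y
      constructor
      · intro hy
        have h1 := (Subgroup.mem_normalizer_iff.mp hx ⟨y, hPT hy⟩).mp (by
          show (⟨y, hPT hy⟩ : T) ∈ (P : Subgroup G).subgroupOf T
          rw [Subgroup.mem_subgroupOf]; exact hy)
        exact Subgroup.mem_subgroupOf.mp h1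
      · intro hy
        have hyT : y ∈ T := by
          have h2 : y = (x : G)⁻¹ * (x * y * (x : G)⁻¹) * x := by group
          rw [h2]
          exact mul_mem (mul_mem (inv_mem x.2) (hPT hy)) x.2
        have h1 := (Subgroup.mem_normalizer_iff.mp hx ⟨y, hyT⟩).mpr (by
          show (x * ⟨y, hyT⟩ * x⁻¹ : T) ∈ (P : Subgroup G).subgroupOf T
          rw [Subgroup.mem_subgroupOf]; exact hy)
        exact Subgroup.mem_subgroupOf.mp h1
    -- the square of `ν` is trivial on `PT`
    have hνP : ∀ y ∈ (PT : Subgroup T), ν y * ν y = 1 := fun y hy => hLT (ν.comp (PT : Subgroup T).subtype) ⟨y, hy⟩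
    set c := (PT : Subgroup T).index with hc
    have hcodd : Odd c := by
      rw [← Nat.not_even_iff_odd, even_iff_two_dvd]
      exact PT.not_dvd_index
    have hν2 : ∀ x : T, (ν x ^ c) * (ν x ^ c) = 1 := by
      intro x
      let ν2 : T →* ℂˣ := ν * ν
      have h1 : (PT : Subgroup T) ≤ ν2.ker := by
        intro y hy
        rw [MonoidHom.mem_ker]
        exact hνP y hy
      have h2 : ν2.ker.index ∣ c := Subgroup.index_dvd_of_le h1
      obtain ⟨r, hr⟩ := h2
      have h3 : x ^ c ∈ ν2.ker := by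
        rw [hr, pow_mul]
        exact pow_mem (Subgroup.pow_index_mem _ x) r
      rw [MonoidHom.mem_ker] at h3
      have h4 : ν (x ^ c) * ν (x ^ c) = 1 := h3
      rwa [map_pow] at h4
    -- `l` has order two
    have hl2 : ∀ m : M, l m * l m = 1 := by
      intro m
      have h1 : lT ⟨⟨m, hMT m.2⟩, Subgroup.mem_subgroupOf.mpr m.2⟩ = l m := rfl
      have h2 := hν ⟨⟨m, hMT m.2⟩, Subgroup.mem_subgroupOf.mpr m.2⟩
      rw [h1] at h2
      have h3 := hνP ⟨m, hMT m.2⟩ (by
        show (⟨m, hMT m.2⟩ : T) ∈ (P : Subgroup G).subgroupOf T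
        rw [Subgroup.mem_subgroupOf]; exact hMP m.2)
      have h4 : (l m) ^ (2 * e) = 1 := by
        rw [two_mul, pow_add]
        have h5 : ν ⟨m, hMT m.2⟩ = l m ^ e := h2
        rw [← h5]; exact h3
      obtain ⟨k, hk⟩ := (IsPGroup.iff_orderOf.1 hMp) m
      have h5 : (l m) ^ (2 ^ k) = 1 := by rw [← map_pow, ← hk, pow_orderOf_eq_one, map_one]
      have h6 := pow_gcd_eq_one.mpr ⟨h4, h5⟩
      have h7 : Nat.gcd (2 * e) (2 ^ k) ∣ 2 := by
        have hcop : Nat.Coprime e (2 ^ k) := (Nat.coprime_two_right.mpr heodd).pow_right k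
        have h8 : Nat.gcd (2 * e) (2 ^ k) ∣ 2 * e := Nat.gcd_dvd_left _ _
        have h9 : Nat.Coprime (Nat.gcd (2 * e) (2 ^ k)) e := Nat.Coprime.coprime_dvd_left (Nat.gcd_dvd_right _ _) hcop.symm
        exact h9.dvd_of_dvd_mul_right h8
      have h8 : l m ^ 2 = 1 := orderOf_dvd_iff_pow_eq_one.mp (dvd_trans (orderOf_dvd_of_pow_eq_one h6) h7)
      rwa [pow_two] at h8
    -- the real linear character
    let μ : T →* ℂˣ := ν ^ c
    have hμ : ∀ x, μ x = ν x ^ c := fun x => rfl
    have hμ2 : ∀ x, μ x * μ x = 1 := fun x => by rw [hμ]; exact hν2 x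
    have hμM : ∀ m : M, μ ⟨m, hMT m.2⟩ = l m := by
      intro m
      have h2 : ν ⟨m, hMT m.2⟩ = l m ^ e := hν ⟨⟨m, hMT m.2⟩, Subgroup.mem_subgroupOf.mpr m.2⟩
      rw [hμ, h2, ← pow_mul]
      obtain ⟨k, hk⟩ := heodd.mul hcodd
      rw [hk, pow_succ, pow_mul, pow_two, hl2, one_pow, one_mul]
    have hsq : ∀ x, (μ x : ℂ) * (μ x : ℂ) = 1 := fun x => by rw [← Units.val_mul, hμ2, Units.val_one]
    have hcj : ∀ x, conj (μ x : ℂ) = μ x := by
      intro x
      rcases mul_self_eq_one_iff.mp (hsq x) with h | h <;> rw [h] <;> simp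
    have hψμ : IsIrrCharacter T (fun x => ψ x * (μ x : ℂ)) := CfsgLib.Glaub4.irr_mul_linear hψ μ
    have hMcard : 1 < Nat.card M := by
      rw [Subgroup.one_lt_card_iff_ne_bot]; exact hMne
    have hltT : Nat.card (T ⧸ MT) < n := by
      have h1 := Subgroup.card_eq_card_quotient_mul_card_subgroup MT
      rw [Nat.card_congr (Subgroup.subgroupOfEquivOfLe hMT).toEquiv] at h1
      have h2 : Nat.card T ≤ Nat.card G := Nat.card_le_card_of_injective _ (Subgroup.subtype_injective T)
      have h3 : 0 < Nat.card (T ⧸ MT) := Nat.card_pos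
      rw [← hn]
      nlinarith
    have hreal := hdefl T PT MT hltT inferInstance hLT hNT _ hψμ e heodd (by simp [he1]) (by
      intro k hk
      have h1 := hψl ⟨k, Subgroup.mem_subgroupOf.mp hk⟩
      have h2 := hμM ⟨k, Subgroup.mem_subgroupOf.mp hk⟩
      have h3 : (μ k : ℂ) = l ⟨k, Subgroup.mem_subgroupOf.mp hk⟩ := congrArg Units.val h2
      have h4 : ψ k = ψ 1 * (l ⟨k, Subgroup.mem_subgroupOf.mp hk⟩ : ℂ) := h1
      show ψ k * (μ k : ℂ) = ψ 1 * (μ 1 : ℂ)
      rw [h4, ← h3, mul_assoc, hsq, map_one, Units.val_one])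
    have hψreal : ∀ x, conj (ψ x) = ψ x := by
      intro x
      have h1 := hreal x
      rw [map_mul, hcj] at h1
      exact mul_right_cancel₀ (Units.ne_zero _) h1
    intro x
    rw [← hψind, ind_real]
    congr 1
    exact funext hψreal
  · -- `M` of odd order
    have hcop : (Nat.card (P : Subgroup G)).Coprime (Nat.card M) := by
      obtain ⟨a, ha⟩ := IsPGroup.iff_card.mp P.isPGroup'
      haveI : Fact p.Prime := ⟨hp⟩
      obtain ⟨b, hb⟩ := IsPGroup.iff_card.mp hMp
      rw [ha, hb]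
      exact Nat.Coprime.pow a b ((Nat.coprime_primes Nat.prime_two hp).mpr (Ne.symm hp2))
    have htriv := inv_trivial (P := (P : Subgroup G)) (M := M) (fun x _ m hm => hM.conj_mem m hm x) hab hcop (by
      intro m hm hfix
      have h1 : m ∈ (P : Subgroup G) := by
        apply hN
        rw [Subgroup.mem_normalizer_iff]
        intro y
        constructor
        · intro hy
          have h2 := hfix y hy
          have h3 : m * y * m⁻¹ = y := by
            rw [mul_inv_eq_iff_eq_mul] at h2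
            rw [mul_inv_eq_iff_eq_mul, ← h2]
          rw [h3]; exact hy
        · intro hy
          have h2 := hfix _ hy
          have h3 : m * y * m⁻¹ * m = m * (m * y * m⁻¹) := by
            rw [mul_inv_eq_iff_eq_mul] at h2
            exact h2
          rw [inv_mul_cancel_right] at h3
          have h4 := mul_left_cancel h3
          rw [h4]; exact hy
      have h2 : m ∈ (P : Subgroup G) ⊓ M := Subgroup.mem_inf.mpr ⟨h1, hm⟩
      rw [Subgroup.inf_eq_bot_of_coprime hcop, Subgroup.mem_bot] at h2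
      exact h2) l (by
      intro x hx m
      have h1 := congrFun (hg x hx) m
      apply Units.ext
      rw [← hl, ← hl]
      exact h1)
    have hθ1' : θ = fun _ => 1 := by
      funext m
      rw [hl, htriv]; rfl
    apply hdefl G P M hlt hs hL hN χ hχ d hd hd1
    intro m hm
    rw [hθ1'] at hover
    have h3 := restrict_of_invariant hM hχ (isIrrCharacter_one (G := M)) (fun g => rfl) hover
    have h4 := congrFun h3 ⟨m, hm⟩
    have h5 := congrFun h3 1
    simp only [Pi.smul_apply, smul_eq_mul, mul_one] at h4 h5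
    rw [h4, ← h5]; rfl

end CfsgLib.RealOdd
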