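import Cfsg.Agent.LibRealOdd6
import Cfsg.Agent.LibCharBasic3

/-! Real irreducible characters of odd degree, part 7: the converse (seat helper20). -/

set_option autoImplicit false
set_option linter.all false

namespace CfsgLib.RealOdd

open Cfsg CfsgLib.CharBasic CfsgLib.CharIndA CfsgLib.Clifford CfsgLib.CharNorm CfsgLib.CharMore
open scoped ComplexConjugate Pointwise

universe u v

/-- all odd degree irreducible characters are real -/
def AllReal (G : Type u) [Group G] : Prop :=
  ∀ χ : G → ℂ, IsIrrCharacter G χ → ∀ d : ℕ, Odd d → χ 1 = d → ∀ g, conj (χ g) = χ g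

theorem AllReal.quot {G : Type u} [Group G] [Finite G] (h : AllReal G) (M : Subgroup G) [M.Normal] : AllReal (G ⧸ M) := by
  intro χ hχ d hd hd1 q
  obtain ⟨g, rfl⟩ := QuotientGroup.mk_surjective q
  have h1 : IsIrrCharacter G (χ ∘ (QuotientGroup.mk' M)) := isIrrCharacter_comp_surj hχ _ (QuotientGroup.mk'_surjective M)
  exact h _ h1 d hd (by rw [← hd1]; rfl) g

/-- an odd degree constituent of the induced character -/
theorem exists_odd_above {G : Type u} [Group G] [Fintype G] (H : Subgroup G) [Fintype H] (hodd : Odd H.index) {ν : H → ℂ}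
    (hν : IsIrrCharacter H ν) (hν1 : ν 1 = 1) :
    ∃ χ : G → ℂ, IsIrrCharacter G χ ∧ (∃ d : ℕ, Odd d ∧ χ 1 = d) ∧ classInner (fun h : H => χ h) ν ≠ 0 := by
  classical
  obtain ⟨m, hm, hexp, -⟩ := char_expand (isCharacter_ind H (irr_isCharacter hν))
  choose d hd0 hd using fun χ : IrrCharacter G => irr_one_nat χ.2
  have h1 : H.index = ∑ χ : IrrCharacter G, m χ * d χ := by
    have h2 := congrFun hexp 1
    rw [ind_one, hν1, mul_one] at h2
    simp only [Finset.sum_apply, Pi.smul_apply, smul_eq_mul, hd] at h2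
    exact_mod_cast h2
  have h2 : ∃ χ : IrrCharacter G, Odd (m χ * d χ) := by
    by_contra hcon
    push Not at hcon
    rw [h1] at hodd
    rw [← Nat.not_even_iff_odd] at hodd
    apply hodd
    apply Finset.even_sum
    intro χ _
    exact Nat.not_odd_iff_even.mp (hcon χ)
  obtain ⟨χ, hχ⟩ := h2
  obtain ⟨h3, h4⟩ := Nat.odd_mul.mp hχ
  refine ⟨χ, χ.2, ⟨d χ, h4, hd χ⟩, ?_⟩
  intro h5
  have h6 := hm χ
  rw [frobenius H ν (irr_classFun χ.2), ← CfsgLib.CharBasic.inner_conj_symm, h5, map_zero] at h6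
  have h7 : m χ = 0 := by exact_mod_cast h6.symm
  rw [h7] at h3
  exact absurd h3 (by decide)

theorem Lin.factor {P : Type u} [Group P] {Q : Type v} [Group Q] (h : Lin Q) (f : P →* Q) (hf : Function.Surjective f)
    (ν : P →* ℂˣ) (hk : f.ker ≤ ν.ker) : ∀ y, ν y * ν y = 1 := by
  intro y
  set ν' : Q →* ℂˣ := f.liftOfSurjective hf ⟨ν, hk⟩ with hν'
  have h1 : ν' (f y) = ν y := MonoidHom.liftOfRightInverse_comp_apply f _ _ ⟨ν, hk⟩ y
  rw [← h1]
  exact h ν' _

theorem hom_real_iff {M : Type u} [Group M] [Finite M] (l : M →* ℂˣ) (h : ∀ m, conj (l m : ℂ) = l m) (m : M) : l m * l m = 1 := by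
  apply Units.ext
  rw [Units.val_mul, Units.val_one]
  nth_rw 2 [← h m]
  rw [Complex.mul_conj, Complex.normSq_eq_norm_sq, ovc_inv.norm_lin_aux l m]
  simp

/-- the normalizer in the quotient -/
theorem norm_mem_quot {G : Type u} [Group G] [Finite G] [Fact (Nat.Prime 2)] (P : Sylow 2 G) (M : Subgroup G) [hM : M.Normal] {g : G}
    (hg : g ∈ Subgroup.normalizer ((P : Subgroup G) : Set G)) :
    (g : G ⧸ M) ∈ Subgroup.normalizer (((P.mapSurjective (QuotientGroup.mk'_surjective M) : Sylow 2 (G ⧸ M)) : Subgroup (G ⧸ M)) : Set (G ⧸ M)) := by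
  have h1 : ((P.mapSurjective (QuotientGroup.mk'_surjective M) : Sylow 2 (G ⧸ M)) : Subgroup (G ⧸ M)) = (P : Subgroup G).map (QuotientGroup.mk' M) :=
    Sylow.coe_mapSurjective _ _
  rw [h1]
  have key : ∀ g : G, g ∈ Subgroup.normalizer ((P : Subgroup G) : Set G) → ∀ q ∈ (P : Subgroup G).map (QuotientGroup.mk' M),
      (g : G ⧸ M) * q * (g : G ⧸ M)⁻¹ ∈ (P : Subgroup G).map (QuotientGroup.mk' M) := by
    rintro g hg _ ⟨x, hx, rfl⟩
    exact ⟨g * x * g⁻¹, (Subgroup.mem_normalizer_iff.mp hg x).mp hx, rfl⟩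
  rw [Subgroup.mem_normalizer_iff]
  intro q
  refine ⟨key g hg q, fun hq => ?_⟩
  have h2 := key g⁻¹ (inv_mem hg) _ hq
  have h3 : ((g⁻¹ : G) : G ⧸ M) * ((g : G ⧸ M) * q * (g : G ⧸ M)⁻¹) * ((g⁻¹ : G) : G ⧸ M)⁻¹ = q := by
    rw [QuotientGroup.mk_inv]; group
  rwa [h3] at h2

/-- the converse -/
theorem conv (n : ℕ) : ∀ (G : Type u) [Group G] [Finite G], Nat.card G = n → Group.IsSolvable G → ∀ P : Sylow 2 G,
    AllReal G → Lin (P : Subgroup G) ∧ Subgroup.normalizer ((P : Subgroup G) : Set G) ≤ P := by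
  classical
  haveI : Fact (Nat.Prime 2) := ⟨Nat.prime_two⟩
  induction n using Nat.strong_induction_on with
  | _ n ih =>
  intro G _ _ hn hs P hR
  haveI := hs
  haveI := Fintype.ofFinite G
  by_cases hnt : Nontrivial G
  swap
  · have hsub : Subsingleton G := not_nontrivial_iff_subsingleton.mp hnt
    refine ⟨fun ν y => ?_, fun g _ => ?_⟩
    · rw [Subsingleton.elim y 1, map_one, mul_one]
    · rw [Subsingleton.elim g 1]; exact one_mem _
  obtain ⟨p, M, hp, hM, hMne, hMp, hab⟩ := exists_abelian_pgroup hnt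
  haveI := hM
  haveI := Fintype.ofFinite M
  haveI := Fintype.ofFinite (P : Subgroup G)
  have habM : ∀ a b : M, a * b = b * a := fun a b => Subtype.ext (hab a a.2 b b.2)
  have hlt : Nat.card (G ⧸ M) < n := by rw [← hn]; exact CfsgLib.SolvBasic.card_quotient_lt M hMne
  have hPbar : ((P.mapSurjective (QuotientGroup.mk'_surjective M) : Sylow 2 (G ⧸ M)) : Subgroup (G ⧸ M)) = (P : Subgroup G).map (QuotientGroup.mk' M) :=
    Sylow.coe_mapSurjective _ _
  obtain ⟨hLb, hNb⟩ := ih _ hlt (G ⧸ M) rfl inferInstance (P.mapSurjective (QuotientGroup.mk'_surjective M)) (hR.quot M)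
  have hlift : ∀ g ∈ Subgroup.normalizer ((P : Subgroup G) : Set G), ∃ y ∈ (P : Subgroup G), ∃ m ∈ M, g = y * m := by
    intro g hg
    have h1 := hNb (norm_mem_quot P M hg)
    rw [hPbar] at h1
    obtain ⟨y, hy, hyg⟩ := h1
    exact ⟨y, hy, y⁻¹ * g, QuotientGroup.eq.mp hyg, by group⟩
  rw [hPbar] at hLb
  have hodd1 : Odd (P : Subgroup G).index := sylow_index_odd P le_rfl
  by_cases hp2 : p = 2
  · subst hp2
    have hMP : M ≤ (P : Subgroup G) := CfsgLib.Cores.normal_le_sylow hM hMp P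
    refine ⟨fun ν => ?_, fun g hg => ?_⟩
    swap
    · obtain ⟨y, hy, m, hm, rfl⟩ := hlift g hg
      exact mul_mem hy (hMP hm)
    have hνirr : IsIrrCharacter (P : Subgroup G) (fun x => (ν x : ℂ)) := isIrrCharacter_hom ν
    obtain ⟨χ, hχ, ⟨d, hd, hd1⟩, hov⟩ := exists_odd_above (P : Subgroup G) hodd1 hνirr (by simp)
    let l : M →* ℂˣ := ν.comp (Subgroup.inclusion hMP)
    have hθ : IsIrrCharacter M (fun m => (l m : ℂ)) := isIrrCharacter_hom l
    have hres : resT hMP (fun x : (P : Subgroup G) => (ν x : ℂ)) = fun m => (l m : ℂ) := rfl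
    have hovM := over_trans hMP (irr_isCharacter hχ) hνirr hθ hov (by
      rw [hres, irr_inner_self hθ]; exact one_ne_zero)
    have hRO : isRO χ := ⟨hR χ hχ d hd hd1, d, hd, hd1⟩
    have hreal := real_of_over hM hχ hRO hθ hovM
    have hl2 : ∀ m, l m * l m = 1 := hom_real_iff l hreal
    set T := inertia hM (fun m => (l m : ℂ)) with hT
    have hTmem : ∀ g, g ∈ T ↔ cj hM g (fun m => (l m : ℂ)) = (fun m => (l m : ℂ)) := fun g => Iff.rfl
    have hPT : (P : Subgroup G) ≤ T := by
      intro x hx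
      rw [hTmem]
      funext m
      show ((ν ⟨x * m * x⁻¹, _⟩ : ℂˣ) : ℂ) = ν ⟨m, _⟩
      have h1 : (⟨x * m * x⁻¹, hMP (hM.conj_mem m m.2 x)⟩ : (P : Subgroup G)) = ⟨x, hx⟩ * ⟨m, hMP m.2⟩ * (⟨x, hx⟩)⁻¹ := rfl
      rw [h1, map_mul, map_mul, map_inv, mul_comm (ν ⟨x, hx⟩), mul_inv_cancel_right]
    have hMT : M ≤ T := le_trans hMP hPT
    haveI := Fintype.ofFinite T
    have h1 : ovc G M (fun m => (l m : ℂ)) ≠ 0 := by
      unfold ovc
      rw [Nat.card_ne_zero]
      exact ⟨⟨⟨⟨χ, hχ⟩, hRO, (over_iff _ _).mpr hovM⟩⟩, inferInstance⟩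
    rw [ovc_clifford hM hθ hreal T hTmem hMT (sylow_index_odd P hPT)] at h1
    unfold ovc at h1
    rw [Nat.card_ne_zero] at h1
    obtain ⟨⟨ψ, hψRO, hψov⟩⟩ := h1.1
    haveI := Fintype.ofFinite (M.subgroupOf T)
    have hovT : ∀ ψ : T → ℂ, (∑ᶠ m : M.subgroupOf T, ψ m * conj (toSub T (fun m => (l m : ℂ)) m) ≠ 0) ↔ classInner (resT hMT ψ) (fun m => (l m : ℂ)) ≠ 0 := by
      intro ψ
      rw [over_iff, ← ci_toSub hMT, toSub_resT]
    rw [hovT] at hψov
    have hres2 := resT_of_invariant hM hMT ψ.2 hθ (fun t ht => ht) hψov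
    have hψl : ∀ m : M, (ψ : T → ℂ) ⟨m, hMT m.2⟩ = (ψ : T → ℂ) 1 * (l m : ℂ) := by
      intro m
      have h3 := congrFun hres2 m
      have h4 := congrFun hres2 1
      simp only [Pi.smul_apply, smul_eq_mul, map_one, Units.val_one, mul_one] at h3 h4
      have h5 : resT hMT (ψ : T → ℂ) m = (ψ : T → ℂ) ⟨m, hMT m.2⟩ := rfl
      have h6 : resT hMT (ψ : T → ℂ) 1 = (ψ : T → ℂ) 1 := rfl
      rw [← h5, h3, ← h4, h6]
    haveI : (M.subgroupOf T).Normal := subgroupOf_normal hM T
    let lT : M.subgroupOf T →* ℂˣ := l.comp (Subgroup.subgroupOfEquivOfLe hMT).toMonoidHom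
    obtain ⟨μ, hμ2, hμ⟩ := exists_mu ψ.2 hψRO (M.subgroupOf T) lT (fun m => hl2 _) (fun m => hψl ⟨((m : T) : G), m.2⟩)
    let μP : (P : Subgroup G) →* ℂˣ := μ.comp (Subgroup.inclusion hPT)
    have hμP2 : ∀ x, μP x * μP x = 1 := fun x => hμ2 _
    have h2 := hLb.factor ((QuotientGroup.mk' M).subgroupMap (P : Subgroup G)) ((QuotientGroup.mk' M).subgroupMap_surjective _)
      (ν * μP) (by
        intro x hx
        rw [MonoidHom.mem_ker] at hx ⊢
        have h3 : (x : G) ∈ M := by
          have h4 := congrArg Subtype.val hx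
          exact (QuotientGroup.eq_one_iff _).mp h4
        have h4 : μP x = l ⟨x, h3⟩ := hμ ⟨⟨x, hPT x.2⟩, Subgroup.mem_subgroupOf.mpr h3⟩
        have h5 : ν x = l ⟨x, h3⟩ := rfl
        rw [MonoidHom.mul_apply, h4, h5]
        exact hl2 _)
    intro y
    have h3 := h2 y
    have h4 := hμP2 y
    simp only [MonoidHom.mul_apply] at h3
    calc ν y * ν y = (ν y * μP y * (ν y * μP y)) * (μP y * μP y)⁻¹ := by
          rw [mul_mul_mul_comm, mul_inv_cancel_right]
      _ = 1 := by rw [h3, h4, inv_one, mul_one]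
  · -- odd order
    have hcop : (Nat.card (P : Subgroup G)).Coprime (Nat.card M) := by
      obtain ⟨a, ha⟩ := IsPGroup.iff_card.mp P.isPGroup'
      haveI : Fact p.Prime := ⟨hp⟩
      obtain ⟨b, hb⟩ := IsPGroup.iff_card.mp hMp
      rw [ha, hb]
      exact Nat.Coprime.pow a b ((Nat.coprime_primes Nat.prime_two hp).mpr (Ne.symm hp2))
    have hMPbot : ∀ x : G, x ∈ (P : Subgroup G) → x ∈ M → x = 1 := by
      intro x hx hxM
      have h1 : orderOf x ∣ Nat.card (P : Subgroup G) := Subgroup.orderOf_dvd_natCard _ hx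
      have h2 : orderOf x ∣ Nat.card M := Subgroup.orderOf_dvd_natCard _ hxM
      have h3 := Nat.dvd_gcd h1 h2
      rw [hcop.gcd_eq_one] at h3
      exact orderOf_eq_one_iff.mp (Nat.dvd_one.mp h3)
    have hModd : Odd (Nat.card M) := by
      haveI : Fact p.Prime := ⟨hp⟩
      obtain ⟨b, hb⟩ := IsPGroup.iff_card.mp hMp
      rw [hb]
      exact (hp.odd_of_ne_two hp2).pow
    refine ⟨fun ν => ?_, fun g hg => ?_⟩
    · refine hLb.factor ((QuotientGroup.mk' M).subgroupMap (P : Subgroup G)) ((QuotientGroup.mk' M).subgroupMap_surjective _) ν ?_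
      intro x hx
      rw [MonoidHom.mem_ker] at hx ⊢
      have h3 : (x : G) ∈ M := by
        have h4 := congrArg Subtype.val hx
        exact (QuotientGroup.eq_one_iff _).mp h4
      have h4 : x = 1 := Subtype.ext (hMPbot x x.2 h3)
      rw [h4, map_one]
    · obtain ⟨y, hy, c, hc, rfl⟩ := hlift g hg
      have hcN : c ∈ Subgroup.normalizer ((P : Subgroup G) : Set G) := by
        have h1 : c = y⁻¹ * (y * c) := by group
        rw [h1]
        exact mul_mem (inv_mem (Subgroup.le_normalizer hy)) hg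
      have hcC : ∀ x ∈ (P : Subgroup G), x * c * x⁻¹ = c := by
        intro x hx
        have h1 : c * x * c⁻¹ ∈ (P : Subgroup G) := (Subgroup.mem_normalizer_iff.mp hcN x).mp hx
        have h2 : x⁻¹ * (c * x * c⁻¹) = 1 := by
          apply hMPbot _ (mul_mem (inv_mem hx) h1)
          have h3 : x⁻¹ * (c * x * c⁻¹) = (x⁻¹ * c * (x⁻¹)⁻¹) * c⁻¹ := by group
          rw [h3]
          exact mul_mem (hM.conj_mem c hc _) (inv_mem hc)
        have h3 : c * x = x * c := by
          have h4 : c * x * c⁻¹ = x := by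
            have := mul_eq_one_iff_inv_eq.mp h2
            rw [inv_inv] at this
            exact this.symm
          exact mul_inv_eq_iff_eq_mul.mp h4
        rw [← h3, mul_inv_cancel_right]
      by_cases hc1 : c = 1
      · rw [hc1, mul_one]; exact hy
      exfalso
      obtain ⟨lam, hlam⟩ := exists_hom_ne_one habM (g := (⟨c, hc⟩ : M)) (fun h => hc1 (congrArg Subtype.val h))
      letI cg : CommGroup M := { (inferInstance : Group M) with mul_comm := habM }
      let cc : ↥(P : Subgroup G) → M →* M := fun k =>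
        { toFun := fun x => ⟨k * x * (k : G)⁻¹, hM.conj_mem x x.2 k⟩
          map_one' := Subtype.ext (by simp)
          map_mul' := fun x y => Subtype.ext (by simp [mul_assoc]) }
      have hcc : ∀ k x, (cc k x : G) = k * x * (k : G)⁻¹ := fun k x => rfl
      let θ : M →* ℂˣ := ∏ h : (P : Subgroup G), lam.comp (cc h)
      have hθ : ∀ m, θ m = ∏ h : (P : Subgroup G), lam (cc h m) := by
        intro m
        show (∏ h : (P : Subgroup G), lam.comp (cc h)) m = _
        rw [MonoidHom.finset_prod_apply]; rfl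
      have hθc : θ ⟨c, hc⟩ = lam ⟨c, hc⟩ ^ Nat.card (P : Subgroup G) := by
        rw [hθ]
        have h4 : ∀ h : (P : Subgroup G), lam (cc h ⟨c, hc⟩) = lam ⟨c, hc⟩ := by
          intro h
          congr 1
          exact Subtype.ext (hcC h h.2)
        simp only [h4, Finset.prod_const, Finset.card_univ, ← Nat.card_eq_fintype_card]
      have hθne : θ ⟨c, hc⟩ ≠ 1 := by
        intro h1
        rw [hθc] at h1
        have h3 : lam ⟨c, hc⟩ ^ Nat.card M = 1 := by rw [← map_pow, pow_card_eq_one', map_one]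
        have h4 := pow_gcd_eq_one.mpr ⟨h1, h3⟩
        rw [hcop.gcd_eq_one, pow_one] at h4
        exact hlam h4
      have hθinv : ∀ x (hx : x ∈ (P : Subgroup G)) (m : M), θ ⟨x * m * x⁻¹, hM.conj_mem m m.2 x⟩ = θ m := by
        intro x hx m
        rw [hθ, hθ]
        refine Fintype.prod_equiv (Equiv.mulRight (⟨x, hx⟩ : (P : Subgroup G))) _ _ fun h => ?_
        congr 1
        apply Subtype.ext
        simp only [hcc, Equiv.coe_mulRight, Subgroup.coe_mul, mul_inv_rev]
        group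
      set H : Subgroup G := M ⊔ (P : Subgroup G) with hHdef
      have hMH : M ≤ H := le_sup_left
      have hPH : (P : Subgroup G) ≤ H := le_sup_right
      haveI := Fintype.ofFinite H
      haveI : (M.subgroupOf H).Normal := subgroupOf_normal hM H
      have hθirr : IsIrrCharacter M (fun m => (θ m : ℂ)) := isIrrCharacter_hom θ
      have hHi : H ≤ inertia hM (fun m => (θ m : ℂ)) := by
        rw [hHdef, sup_le_iff]
        constructor
        · intro x hx
          show cj hM x (fun m => (θ m : ℂ)) = (fun m => (θ m : ℂ))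
          funext m
          show (θ ⟨x * m * x⁻¹, _⟩ : ℂ) = θ m
          congr 2
          apply Subtype.ext
          show x * m * x⁻¹ = m
          rw [hab x hx m m.2, mul_inv_cancel_right]
        · intro x hx
          show cj hM x (fun m => (θ m : ℂ)) = (fun m => (θ m : ℂ))
          funext m
          show (θ ⟨x * m * x⁻¹, _⟩ : ℂ) = θ m
          rw [hθinv x hx m]
      let f : M.subgroupOf H →* ℂˣ := θ.comp (Subgroup.subgroupOfEquivOfLe hMH).toMonoidHom
      have hfinv : CfsgLib.Extend.Inv (M.subgroupOf H) (fun n => (f n : ℂ)) := by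
        intro g m
        have h1 : cj hM (g : G) (fun m => (θ m : ℂ)) = (fun m => (θ m : ℂ)) := hHi g.2
        exact congrFun h1 ⟨(m : H), Subgroup.mem_subgroupOf.mp m.2⟩
      have hfcop : Nat.Coprime (M.subgroupOf H).index (orderOf f) := by
        have h1 : (M.subgroupOf H).index ∣ Nat.card (P : Subgroup G) := by
          show M.relIndex H ∣ _
          rw [hHdef, Subgroup.relIndex_sup_left]
          exact Subgroup.relIndex_dvd_card M (P : Subgroup G)
        have h2 : orderOf f ∣ Nat.card M := by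
          rw [orderOf_dvd_iff_pow_eq_one]
          apply MonoidHom.ext
          intro m
          rw [MonoidHom.pow_apply, MonoidHom.one_apply]
          show θ _ ^ Nat.card M = 1
          rw [← map_pow, pow_card_eq_one', map_one]
        exact Nat.Coprime.coprime_dvd_left h1 (Nat.Coprime.coprime_dvd_right h2 hcop)
      obtain ⟨μ, hμ, -⟩ := CfsgLib.Extend.ext_linear_coprime hfinv hfcop
      have hμirr : IsIrrCharacter H (fun x => (μ x : ℂ)) := isIrrCharacter_hom μ
      obtain ⟨χ, hχ, ⟨d, hd, hd1⟩, hov⟩ := exists_odd_above H (sylow_index_odd P hPH) hμirr (by simp)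
      have hres : resT hMH (fun x : H => (μ x : ℂ)) = fun m => (θ m : ℂ) := by
        funext m
        exact congrArg Units.val (hμ ⟨⟨m, hMH m.2⟩, Subgroup.mem_subgroupOf.mpr m.2⟩)
      have hovM := over_trans hMH (irr_isCharacter hχ) hμirr hθirr hov (by
        rw [hres, irr_inner_self hθirr]; exact one_ne_zero)
      have hRO : isRO χ := ⟨hR χ hχ d hd hd1, d, hd, hd1⟩
      have hreal := real_of_over hM hχ hRO hθirr hovM
      have hl2 := hom_real_iff θ hreal ⟨c, hc⟩
      apply hθne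
      have h3 : θ ⟨c, hc⟩ ^ Nat.card M = 1 := by rw [← map_pow, pow_card_eq_one', map_one]
      have h4 : θ ⟨c, hc⟩ ^ 2 = 1 := by rw [pow_two]; exact hl2
      have h5 := pow_gcd_eq_one.mpr ⟨h4, h3⟩
      rw [(Nat.coprime_two_left.mpr hModd).gcd_eq_one, pow_one] at h5
      exact h5

end CfsgLib.RealOdd
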