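import Cfsg.Agent.LibRealOdd7
import Cfsg.Agent.LibLE4

/-! Real irreducible characters of odd degree, part 8: an extension criterion (seat helper20). -/

set_option autoImplicit false
set_option linter.all false

namespace CfsgLib.RealOdd

open Cfsg CfsgLib.CharBasic CfsgLib.CharIndA CfsgLib.Clifford CfsgLib.CharNorm CfsgLib.CharMore
open scoped ComplexConjugate Pointwise

universe u v

theorem det_conj {H : Type u} [Group H] [Fintype H] {ψ : H → ℂ} (hψ : IsIrrCharacter H ψ) :
    detChar (fun g => conj (ψ g)) = fun g => detChar ψ g⁻¹ := by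
  obtain ⟨n, ρ, hρ, rfl⟩ := hψ
  have hdualchar : ρ.dual.character = fun g => conj (ρ.character g) := by
    ext g
    rw [Representation.char_dual, character_inv]
  haveI : ρ.dual.IsIrreducible := by
    apply CfsgLib.Extend.isIrreducible_of_char
    rw [hdualchar]
    exact isIrrCharacter_conj (isIrrCharacter_character ρ)
  rw [← hdualchar, CfsgLib.Extend.detChar_eq ρ.dual, CfsgLib.Extend.detChar_eq ρ]
  funext g
  rw [Representation.dual_apply]
  exact LinearMap.det_dualMap _

theorem det_real {H : Type u} [Group H] [Fintype H] {ψ : H → ℂ} (hψ : IsIrrCharacter H ψ) (hreal : ∀ g, conj (ψ g) = ψ g)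
    (f : H →* ℂˣ) (hf : detChar ψ = fun g => (f g : ℂ)) (x : H) : f x * f x = 1 := by
  have h1 := det_conj hψ
  have h2 : (fun g => conj (ψ g)) = ψ := funext hreal
  rw [h2, hf] at h1
  have h3 : f x = f x⁻¹ := Units.ext (congrFun h1 x)
  nth_rw 2 [h3]
  rw [← map_mul, mul_inv_cancel, map_one]

/-- an invariant real character of odd degree and trivial determinant extends to a real character -/
theorem exists_real_ext {G : Type u} [Group G] [Fintype G] {N : Subgroup G} [hN : N.Normal] [Fintype N] {θ : N → ℂ} (hθ : IsIrrCharacter N θ)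
    (hinv : CfsgLib.Extend.Inv N θ) (d : ℕ) (hd : θ 1 = d) (hreal : ∀ x, conj (θ x) = θ x) (hdet : detOrder θ = 1)
    (hcop : Nat.Coprime N.index d) : ∃ χ : G → ℂ, IsIrrCharacter G χ ∧ (∀ n : N, χ n = θ n) ∧ ∀ g, conj (χ g) = χ g := by
  obtain ⟨χ, ⟨h1, h2, h3⟩, h4⟩ := CfsgLib.Extend.ext_coprime hθ hinv d hd (by rw [hdet, one_mul]; exact hcop)
  refine ⟨χ, h1, h2, ?_⟩
  have h5 := h4 (fun g => conj (χ g)) (isIrrCharacter_conj h1) (fun n => by
    show conj (χ n) = θ n
    rw [h2, hreal]) (by
    have h6 : detOrder (fun g => conj (χ g)) = 1 := by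
      rw [hdet] at h3
      unfold detOrder at h3 ⊢
      rw [orderOf_eq_one_iff] at h3 ⊢
      rw [det_conj h1, h3]
      rfl
    rw [h6]
    exact Nat.coprime_one_right _)
  exact fun g => congrFun h5 g

theorem exists_fixed_odd {X : Type u} [Fintype X] {P : Type v} [Group P] [Finite P] (hP : IsPGroup 2 P) [MulAction P X] (w : X → ℕ)
    (hw : ∀ (g : P) x, w (g • x) = w x) (c : X → X) (hc : ∀ x, c (c x) = x) (hcw : ∀ x, w (c x) = w x)
    (hcomm : ∀ (g : P) x, c (g • x) = g • c x) (hodd : Odd (∑ x, w x)) : ∃ x, (∀ g : P, g • x = x) ∧ c x = x ∧ Odd (w x) := by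
  classical
  haveI : Fact (Nat.Prime 2) := ⟨Nat.prime_two⟩
  rw [Finset.odd_sum_iff_odd_card_odd] at hodd
  let Y := {x : X // Odd (w x)}
  letI actY : MulAction P Y :=
    { smul := fun g y => ⟨g • y.1, by rw [hw]; exact y.2⟩
      one_smul := fun y => Subtype.ext (one_smul P y.1)
      mul_smul := fun g h y => Subtype.ext (mul_smul g h y.1) }
  have hact : ∀ (g : P) (y : Y), ((g • y : Y) : X) = g • (y : X) := fun g y => rfl
  have hY : Odd (Nat.card Y) := by
    rw [Nat.card_eq_fintype_card, Fintype.card_subtype]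
    exact hodd
  have h1 := hP.card_modEq_card_fixedPoints Y
  have hF : Odd (Nat.card (MulAction.fixedPoints P Y)) := by
    rw [Nat.odd_iff] at hY ⊢
    rw [← hY]
    exact h1.symm
  let cF : Equiv.Perm (MulAction.fixedPoints P Y) :=
    { toFun := fun y => ⟨⟨c y.1.1, by rw [hcw]; exact y.1.2⟩, fun g => by
        apply Subtype.ext
        rw [hact, ← hcomm]
        have h2 := congrArg Subtype.val (y.2 g)
        rw [hact] at h2
        rw [h2]⟩
      invFun := fun y => ⟨⟨c y.1.1, by rw [hcw]; exact y.1.2⟩, fun g => by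
        apply Subtype.ext
        rw [hact, ← hcomm]
        have h2 := congrArg Subtype.val (y.2 g)
        rw [hact] at h2
        rw [h2]⟩
      left_inv := fun y => Subtype.ext (Subtype.ext (hc _))
      right_inv := fun y => Subtype.ext (Subtype.ext (hc _)) }
  obtain ⟨y, hy⟩ := Equiv.Perm.exists_fixed_point_of_prime (p := 2) (n := 1) (σ := cF) (by
    rw [← Nat.card_eq_fintype_card]
    exact hF.not_two_dvd_nat) (by
    rw [pow_one, pow_two]
    apply Equiv.ext
    intro y
    exact Subtype.ext (Subtype.ext (hc _)))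
  refine ⟨y.1.1, fun g => ?_, ?_, y.1.2⟩
  · have h2 := congrArg Subtype.val (y.2 g)
    rwa [hact] at h2
  · exact congrArg (fun z => z.1.1) hy

end CfsgLib.RealOdd
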