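import Cfsg.Agent.LibRee26

set_option autoImplicit false
set_option linter.unusedSectionVars false
set_option linter.unusedVariables false
set_option linter.unusedSimpArgs false

/-! Groups of Ree type: numbers of elements of given order -/

namespace CfsgLib.ReeA

open Matrix CfsgLib.Chev CfsgLib.Rank1 CfsgLib.SL2P

section general
variable {G : Type*} [Group G] [Finite G]

theorem card_ord (i : ℕ) : Nat.card {g : G // orderOf g = i} = Set.ncard {g : G | orderOf g = i} := rfl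

theorem card_ord_cyc {T : Subgroup G} (hT : IsCyclic T) {i : ℕ} (hi : i ∣ Nat.card T) : Set.ncard {x | x ∈ T ∧ orderOf x = i} = Nat.totient i := by
  classical
  have : Fintype ↥T := Fintype.ofFinite _
  have h := IsCyclic.card_orderOf_eq_totient (α := ↥T) (d := i) (by rw [← Nat.card_eq_fintype_card]; exact hi)
  rw [← h]
  have h1 : {x | x ∈ T ∧ orderOf x = i} = (fun x : T => (x : G)) '' ((Finset.univ.filter fun a : ↥T => orderOf a = i : Finset ↥T) : Set ↥T) := by
    ext x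
    simp only [Set.mem_setOf_eq, Set.mem_image, Finset.coe_filter, Finset.mem_univ, true_and]
    constructor
    · rintro ⟨hx, ho⟩
      exact ⟨⟨x, hx⟩, by rw [← Subgroup.orderOf_coe]; exact ho, rfl⟩
    · rintro ⟨⟨x, hx⟩, ho, rfl⟩
      exact ⟨hx, by rw [← ho, ← Subgroup.orderOf_coe]⟩
  rw [h1, Set.ncard_image_of_injective _ Subtype.val_injective, Set.ncard_coe_finset]

theorem orderOf_conj' (g x : G) : orderOf (g * x * g⁻¹) = orderOf x := CfsgLib.TransFus.orderOf_conj g x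

/-- general count -/
theorem count_ord {T N : Subgroup G} {i : ℕ} {X : Set G} (hX : ∀ x ∈ X, orderOf x = i) (hN : ∀ n ∈ N, ∀ x ∈ X, n * x * n⁻¹ ∈ X)
    (hTI : ∀ g : G, ∀ x ∈ X, g * x * g⁻¹ ∈ X → g ∈ N) (hall : ∀ y : G, orderOf y = i → ∃ g : G, g * y * g⁻¹ ∈ X) :
    Nat.card {g : G // orderOf g = i} * Nat.card N = Nat.card G * Set.ncard X := by
  rw [card_ord, ← ti_count N X hN hTI]
  congr 2
  ext y
  constructor
  · intro hy
    obtain ⟨g, hg⟩ := hall y hy
    exact ⟨g⁻¹, _, hg, by group⟩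
  · rintro ⟨g, x, hx, rfl⟩
    show orderOf _ = i
    rw [orderOf_conj', hX x hx]

end general

variable {G : Type*} [Group G] [Finite G] {K : Type*} [Field K] [Fintype K] {m : ℕ} (R : RG G K m)

theorem q_pos (m : ℕ) : 3 ≤ 3 ^ (2 * m + 1) := by
  calc 3 = 3 ^ 1 := by norm_num
    _ ≤ 3 ^ (2 * m + 1) := Nat.pow_le_pow_right (by norm_num) (by omega)

include R in
theorem RG.n2count (hperf : commutator G = ⊤) : Nat.card {g : G // orderOf g = 2} = (3 ^ (2 * m + 1)) ^ 2 * Ph m := by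
  have h := count_ord (T := ⊤) (N := Subgroup.centralizer {R.τ}) (i := 2) (X := {R.τ})
    (by rintro x rfl; exact orderOf_eq_prime (by rw [pow_two]; exact R.τ2) R.τ1)
    (by rintro n hn x rfl
        rw [Set.mem_singleton_iff]
        exact mul_inv_eq_iff_eq_mul.2 (Subgroup.mem_centralizer_singleton_iff.1 hn))
    (by rintro g x rfl hg
        rw [Set.mem_singleton_iff] at hg
        exact Subgroup.mem_centralizer_singleton_iff.2 (mul_inv_eq_iff_eq_mul.1 hg))
    (by intro y hy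
        have h1 : y ≠ 1 := by rintro rfl; rw [orderOf_one] at hy; omega
        have h2 : y * y = 1 := by rw [← pow_two, ← hy]; exact pow_orderOf_eq_one y
        obtain ⟨g, hg⟩ := R.inv_conj hperf h1 h2
        refine ⟨g⁻¹, ?_⟩
        rw [Set.mem_singleton_iff, ← hg]; group)
  rw [Set.ncard_singleton, mul_one, R.card_Cτ, R.cG'] at h
  have hq := q_pos m
  have hpos : 0 < 3 ^ (2 * m + 1) * ((3 ^ (2 * m + 1) - 1) * (3 ^ (2 * m + 1) + 1)) := by
    have : 0 < 3 ^ (2 * m + 1) - 1 := by omega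
    positivity
  apply Nat.eq_of_mul_eq_mul_right hpos
  rw [h]; ring

include R in
theorem RG.n3count : Nat.card {g : G // orderOf g = 3} = ((3 ^ (2 * m + 1)) ^ 2 - 1) * ((3 ^ (2 * m + 1)) ^ 3 + 1) := by
  have : Fact (Nat.Prime 3) := ⟨Nat.prime_three⟩
  have h := count_ord (T := ⊤) (N := R.B) (i := 3) (X := {u | u ∈ R.U ∧ orderOf u = 3})
    (by rintro x ⟨-, hx⟩; exact hx)
    (by rintro n hn x ⟨hx, ho⟩
        exact ⟨R.Bnorm hn hx, by rw [orderOf_conj', ho]⟩)
    (by rintro g x ⟨hx, ho⟩ ⟨hg, -⟩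
        apply R.U_TI hx _ hg
        rintro rfl
        rw [orderOf_one] at ho; omega)
    (by intro y hy
        obtain ⟨g, hg⟩ := R.into_U (x := y) ⟨1, by rw [hy, pow_one]⟩
        exact ⟨g, hg, by rw [orderOf_conj', hy]⟩)
  have h1 : {u | u ∈ R.U ∧ orderOf u = 3} = {u | u ∈ R.U ∧ u ^ 3 = 1} \ {1} := by
    ext u
    simp only [Set.mem_sdiff, Set.mem_setOf_eq, Set.mem_singleton_iff]
    constructor
    · rintro ⟨hu, ho⟩
      refine ⟨⟨hu, by rw [← ho]; exact pow_orderOf_eq_one u⟩, ?_⟩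
      rintro rfl
      rw [orderOf_one] at ho; omega
    · rintro ⟨⟨hu, h3⟩, h1⟩
      exact ⟨hu, orderOf_eq_prime h3 h1⟩
  have h2 : Set.ncard {u | u ∈ R.U ∧ u ^ 3 = 1} = (3 ^ (2 * m + 1)) ^ 2 := R.U3
  rw [h1, Set.ncard_sdiff_singleton_of_mem (show (1 : G) ∈ {u | u ∈ R.U ∧ u ^ 3 = 1} from ⟨R.U.one_mem, one_pow 3⟩), h2, R.card_B, R.cG] at h
  have hq := q_pos m
  have hpos : 0 < (3 ^ (2 * m + 1)) ^ 3 * (3 ^ (2 * m + 1) - 1) := by
    have : 0 < 3 ^ (2 * m + 1) - 1 := by omega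
    positivity
  apply Nat.eq_of_mul_eq_mul_right hpos
  rw [h]; ring

theorem dvd9 {e : ℕ} (h : e ∣ 9) : e = 1 ∨ e = 3 ∨ e = 9 := by
  have h1 : e ≤ 9 := Nat.le_of_dvd (by norm_num) h
  interval_cases e <;> simp_all

include R in
theorem RG.n9count : Nat.card {g : G // orderOf g = 9} = (3 ^ (2 * m + 1)) ^ 2 * (3 ^ (2 * m + 1) - 1) * ((3 ^ (2 * m + 1)) ^ 3 + 1) := by
  have h1 : Cls {x | x ∈ R.U ∧ x ≠ 1} = {g : G | orderOf g = 3} ∪ {g : G | orderOf g = 9} := by
    ext y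
    constructor
    · intro hy
      obtain ⟨h2, h3⟩ := R.ordA hy
      rcases dvd9 h2 with h | h | h
      · exact absurd h h3
      · exact Or.inl h
      · exact Or.inr h
    · intro hy
      apply R.memA
      · rintro rfl
        rcases hy with h | h
        · have : orderOf (1 : G) = 3 := h
          rw [orderOf_one] at this; omega
        · have : orderOf (1 : G) = 9 := h
          rw [orderOf_one] at this; omega
      · intro s hs hsd
        have : s ∣ 3 ^ 2 := by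
          rcases hy with h | h
          · have e : orderOf y = 3 := h
            rw [e] at hsd; exact hsd.trans (by norm_num)
          · have e : orderOf y = 9 := h
            rw [e] at hsd; exact hsd.trans (by norm_num)
        exact (Nat.prime_dvd_prime_iff_eq hs Nat.prime_three).1 (hs.dvd_of_dvd_pow this)
  have h2 := R.setA_count
  rw [h1, Set.ncard_union_eq] at h2
  · have h3 := R.n3count
    rw [card_ord] at h3
    rw [h3] at h2
    rw [card_ord]
    have hq := q_pos m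
    generalize 3 ^ (2 * m + 1) = q at *
    have hq3 : 1 ≤ q ^ 3 := Nat.one_le_pow _ _ (by omega)
    have hq2 : 1 ≤ q ^ 2 := Nat.one_le_pow _ _ (by omega)
    zify [hq3, hq2, (by omega : 1 ≤ q)] at h2 ⊢
    linear_combination h2
  · rw [Set.disjoint_left]
    intro y h3 h4
    have h3' : orderOf y = 3 := h3
    have h4' : orderOf y = 9 := h4
    omega

include R in
theorem RG.n6count (hperf : commutator G = ⊤) : Nat.card {g : G // orderOf g = 6} = (3 ^ (2 * m + 1)) ^ 2 * (3 ^ (2 * m + 1) - 1) * ((3 ^ (2 * m + 1)) ^ 3 + 1) := by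
  have h1 : Cls {x | ∃ A : Matrix.SpecialLinearGroup (Fin 2) K, tr A = 2 ∧ x = R.τ * R.φ A} = {g : G | orderOf g = 2} ∪ {g : G | orderOf g = 6} := by
    ext y
    constructor
    · intro hy
      obtain ⟨h2, h3⟩ := R.ordB hy
      rcases dvd6 h2 with h | h | h | h
      · rw [h] at h3; omega
      · exact Or.inl h
      · rw [h] at h3; omega
      · exact Or.inr h
    · intro hy
      have hy' : orderOf y = 2 ∨ orderOf y = 6 := hy
      apply R.memB hperf
      · intro s hs hsd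
        have h2 : s ∣ 2 * 3 := by
          rcases hy' with e | e
          · rw [e] at hsd; exact hsd.mul_right 3
          · rw [e] at hsd; exact hsd
        rcases (Nat.Prime.dvd_mul hs).1 h2 with h3 | h3
        · right; exact (Nat.prime_dvd_prime_iff_eq hs Nat.prime_two).1 h3
        · left; exact (Nat.prime_dvd_prime_iff_eq hs Nat.prime_three).1 h3
      · rcases hy' with e | e <;> rw [e]
        norm_num
  have h2 := R.setB_count
  rw [h1, Set.ncard_union_eq] at h2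
  · have h3 := R.n2count hperf
    rw [card_ord] at h3
    rw [h3] at h2
    rw [card_ord]
    have hq := q_pos m
    have hP := Ph_eq m
    generalize 3 ^ (2 * m + 1) = q at *
    zify [(by omega : 1 ≤ q)] at h2 hP ⊢
    have hP' : (Ph m : ℤ) = q ^ 2 - q + 1 := by linarith
    rw [hP'] at h2
    linear_combination h2
  · rw [Set.disjoint_left]
    intro y h3 h4
    have h3' : orderOf y = 2 := h3
    have h4' : orderOf y = 6 := h4
    omega

include R in
theorem RG.nHcount (hm : 1 ≤ m) {i : ℕ} (hi : 2 < i) (hd : i ∣ 3 ^ (2 * m + 1) - 1) :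
    2 * Nat.card {g : G // orderOf g = i} = Nat.totient i * (3 ^ (2 * m + 1)) ^ 3 * ((3 ^ (2 * m + 1)) ^ 3 + 1) := by
  have hq := R.q_ge hm
  have h := count_ord (T := ⊤) (N := Subgroup.normalizer (R.H : Set G)) (i := i) (X := {x | x ∈ R.H ∧ orderOf x = i})
    (by rintro x ⟨-, hx⟩; exact hx)
    (by rintro n hn x ⟨hx, ho⟩
        exact ⟨(Subgroup.mem_normalizer_iff.1 hn x).1 hx, by rw [orderOf_conj', ho]⟩)
    (by rintro g x ⟨hx, ho⟩ ⟨hg, -⟩
        have h5 : orderOf R.τ = 2 := orderOf_eq_prime (by rw [pow_two]; exact R.τ2) R.τ1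
        exact R.H_sub_conj hx (by rintro rfl; rw [orderOf_one] at ho; omega) (by rintro rfl; rw [h5] at ho; omega) hg hm)
    (by intro y hy
        by_contra hcon
        have h2 : y * y = 1 := by
          apply R.pow_two_elt
          intro s hs hsy
          by_contra hs2
          obtain ⟨g, hg, -⟩ := R.into_Hcent hs hs2 (hsy.trans (by rw [hy]; exact hd)) hsy
          exact hcon ⟨g, hg y rfl, by rw [orderOf_conj', hy]⟩
        have h3 : orderOf y ∣ 2 := orderOf_dvd_of_pow_eq_one (by rw [pow_two]; exact h2)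
        have := Nat.le_of_dvd (by norm_num) h3
        omega)
  rw [card_ord_cyc R.Hc (by rw [R.cH]; exact hd), R.card_NH hm, R.cG] at h
  apply Nat.eq_of_mul_eq_mul_right (show 0 < 3 ^ (2 * m + 1) - 1 by omega)
  calc 2 * Nat.card {g : G // orderOf g = i} * (3 ^ (2 * m + 1) - 1) = Nat.card {g : G // orderOf g = i} * (2 * (3 ^ (2 * m + 1) - 1)) := by ring
    _ = _ := by rw [h]; ring

theorem RG.TD.nAcount (hperf : commutator G = ⊤) (hm : 1 ≤ m) {D : Subgroup G} {a : G} (hT : R.TD D a) {i : ℕ} (hi : 1 < i) (hd : i ∣ (3 ^ (2 * m + 1) + 1) / 4) :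
    6 * Nat.card {g : G // orderOf g = i} = Nat.totient i * (3 ^ (2 * m + 1)) ^ 3 * (3 ^ (2 * m + 1) - 1) * Ph m := by
  have hq := R.q_ge hm
  have hodd : Odd i := Odd.of_dvd_nat (quarter_odd m) hd
  have h := count_ord (T := ⊤) (N := Subgroup.normalizer (Subgroup.zpowers a : Set G)) (i := i) (X := {x | x ∈ Subgroup.zpowers a ∧ orderOf x = i})
    (by rintro x ⟨-, hx⟩; exact hx)
    (by rintro n hn x ⟨hx, ho⟩
        exact ⟨(Subgroup.mem_normalizer_iff.1 hn x).1 hx, by rw [orderOf_conj', ho]⟩)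
    (by rintro g x ⟨hx, ho⟩ ⟨hg, -⟩
        apply hT.norm_of R hperf hm (hT.zD R hx) _ (hT.zD R hg)
        intro e
        have h3 : orderOf x ∣ 2 := orderOf_dvd_of_pow_eq_one (by rw [pow_two]; exact e)
        have h4 := Nat.le_of_dvd (by norm_num) h3
        rw [ho] at h4
        have : i = 2 := by omega
        rw [this] at hodd; exact absurd hodd (by decide))
    (by intro y hy
        obtain ⟨s, hs, hsi⟩ := Nat.exists_prime_and_dvd (n := i) (by omega)
        obtain ⟨g, hg, -⟩ := hT.into_D R hperf hs (hsi.trans hd) (x := y) (by rw [hy]; exact hsi)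
        exact ⟨g, hT.odd R (hg y rfl) (by rw [orderOf_conj', hy]; exact hodd), by rw [orderOf_conj', hy]⟩)
  rw [card_ord_cyc (inferInstance : IsCyclic ↥(Subgroup.zpowers a)) (by rw [Nat.card_zpowers, hT.oa]; exact hd), hT.card_N R hperf hm, R.cG'] at h
  apply Nat.eq_of_mul_eq_mul_right (show 0 < 3 ^ (2 * m + 1) + 1 by positivity)
  calc 6 * Nat.card {g : G // orderOf g = i} * (3 ^ (2 * m + 1) + 1) = Nat.card {g : G // orderOf g = i} * (6 * (3 ^ (2 * m + 1) + 1)) := by ring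
    _ = _ := by rw [h]; ring

theorem RG.TD.ord2i {D : Subgroup G} {a : G} (hT : R.TD D a) {i : ℕ} (hi : Odd i) (hd : i ∣ (3 ^ (2 * m + 1) + 1) / 4) :
    Set.ncard {x | x ∈ D ∧ orderOf x = 2 * i} = 3 * Nat.totient i := by
  have h2n : R.n ≠ R.τ * R.n := fun e => R.τ1 (right_eq_mul.1 e)
  have hE : Set.ncard ({R.τ, R.n, R.τ * R.n} : Set G) = 3 := by
    rw [Set.ncard_insert_of_notMem, Set.ncard_pair h2n]
    simp only [Set.mem_insert_iff, Set.mem_singleton_iff, not_or]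
    exact ⟨fun e => R.τφ ww (by rw [R.hw, e]), fun e => R.n1 (left_eq_mul.1 e)⟩
  have hEo : ∀ e ∈ ({R.τ, R.n, R.τ * R.n} : Set G), orderOf e = 2 ∧ e ∈ D := by
    rintro e (rfl | rfl | rfl)
    · exact ⟨orderOf_eq_prime (by rw [pow_two]; exact R.τ2) R.τ1, hT.τm⟩
    · exact ⟨orderOf_eq_prime (by rw [pow_two]; exact R.n2) R.n1, hT.nm⟩
    · exact ⟨orderOf_eq_prime (by rw [pow_two]; exact R.τn2) R.τn1, D.mul_mem hT.τm hT.nm⟩
  have hAodd : ∀ b ∈ Subgroup.zpowers a, Odd (orderOf b) := fun b hb => Odd.of_dvd_nat (hT.zodd R) (orderOf_dvd_of_mem_zpowers hb)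
  have h1 : {x | x ∈ D ∧ orderOf x = 2 * i} = (fun p : G × G => p.1 * p.2) '' (({R.τ, R.n, R.τ * R.n} : Set G) ×ˢ {x | x ∈ Subgroup.zpowers a ∧ orderOf x = i}) := by
    ext x
    constructor
    · rintro ⟨hx, ho⟩
      obtain ⟨e, he, j, hj⟩ := hT.el x hx
      have haj : a ^ j ∈ Subgroup.zpowers a := Subgroup.mem_zpowers_iff.2 ⟨j, rfl⟩
      rcases he with e1 | he
      · exfalso
        rw [e1, one_mul] at hj
        have := hAodd _ haj
        rw [← hj, ho] at this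
        exact absurd this (by rw [Nat.not_odd_iff_even]; exact ⟨i, by ring⟩)
      · have he' : e ∈ ({R.τ, R.n, R.τ * R.n} : Set G) := he
        obtain ⟨o1, o2⟩ := hEo e he'
        have hc : Commute e (a ^ j) := (show Commute e a from hT.comm _ o2 _ hT.am).zpow_right j
        have h3 := hc.orderOf_mul_eq_mul_orderOf_of_coprime (by rw [o1]; exact (Nat.coprime_two_left).2 (hAodd _ haj))
        rw [← hj, ho, o1] at h3
        exact ⟨(e, a ^ j), ⟨he', haj, by show orderOf (a ^ j) = i; omega⟩, hj.symm⟩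
    · rintro ⟨⟨e, b⟩, ⟨he, hb, hbo⟩, rfl⟩
      obtain ⟨o1, o2⟩ := hEo e he
      have hc : Commute e b := hT.comm _ o2 _ (hT.zD R hb)
      refine ⟨D.mul_mem o2 (hT.zD R hb), ?_⟩
      show orderOf (e * b) = 2 * i
      rw [hc.orderOf_mul_eq_mul_orderOf_of_coprime (by rw [o1]; exact (Nat.coprime_two_left).2 (hAodd _ hb)), o1, hbo]
  rw [h1, Set.InjOn.ncard_image, Set.ncard_prod, hE, card_ord_cyc (inferInstance : IsCyclic ↥(Subgroup.zpowers a)) (by rw [Nat.card_zpowers, hT.oa]; exact hd)]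
  rintro ⟨e, b⟩ ⟨he, hb, hbo⟩ ⟨e', b'⟩ ⟨he', hb', hbo'⟩ h
  have h' : e * b = e' * b' := h
  obtain ⟨o1, o2⟩ := hEo e he
  obtain ⟨o1', o2'⟩ := hEo e' he'
  -- b b'⁻¹ = e⁻¹ e' has order dividing 2 and odd
  have h3 : b * b'⁻¹ = e⁻¹ * e' := by
    calc b * b'⁻¹ = e⁻¹ * (e * b) * b'⁻¹ := by group
      _ = _ := by rw [h']; group
  have h4 : (b * b'⁻¹) * (b * b'⁻¹) = 1 := by
    rw [h3]
    have hc : Commute e⁻¹ e' := (show Commute e e' from hT.comm _ o2 _ o2').inv_left
    have e2 : e ^ 2 = 1 := by rw [← o1]; exact pow_orderOf_eq_one e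
    have e2' : e' ^ 2 = 1 := by rw [← o1']; exact pow_orderOf_eq_one e'
    rw [← pow_two, hc.mul_pow, inv_pow, e2, e2', inv_one, one_mul]
  have h5 : b * b'⁻¹ = 1 := by
    have h6 : orderOf (b * b'⁻¹) ∣ 2 := orderOf_dvd_of_pow_eq_one (by rw [pow_two]; exact h4)
    have h7 := hAodd _ (Subgroup.mul_mem _ hb (Subgroup.inv_mem _ hb'))
    rcases (Nat.dvd_prime Nat.prime_two).1 h6 with h8 | h8
    · exact orderOf_eq_one_iff.1 h8
    · rw [h8] at h7; exact absurd h7 (by decide)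
  have h6 : b = b' := mul_inv_eq_one.1 h5
  rw [h6] at h'
  exact Prod.ext (mul_right_cancel h') h6

theorem RG.TD.n2Acount (hperf : commutator G = ⊤) (hm : 1 ≤ m) {D : Subgroup G} {a : G} (hT : R.TD D a) {i : ℕ} (hi : 1 < i) (hd : i ∣ (3 ^ (2 * m + 1) + 1) / 4) :
    2 * Nat.card {g : G // orderOf g = 2 * i} = Nat.totient i * (3 ^ (2 * m + 1)) ^ 3 * (3 ^ (2 * m + 1) - 1) * Ph m := by
  have hq := R.q_ge hm
  have hodd : Odd i := Odd.of_dvd_nat (quarter_odd m) hd
  have h := count_ord (T := ⊤) (N := Subgroup.normalizer (Subgroup.zpowers a : Set G)) (i := 2 * i) (X := {x | x ∈ D ∧ orderOf x = 2 * i})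
    (by rintro x ⟨-, hx⟩; exact hx)
    (by rintro n hn x ⟨hx, ho⟩
        exact ⟨hT.normD R hperf hm hn hx, by rw [orderOf_conj', ho]⟩)
    (by rintro g x ⟨hx, ho⟩ ⟨hg, -⟩
        apply hT.norm_of R hperf hm hx _ hg
        intro e
        have h3 : orderOf x ∣ 2 := orderOf_dvd_of_pow_eq_one (by rw [pow_two]; exact e)
        have h4 := Nat.le_of_dvd (by norm_num) h3
        omega)
    (by intro y hy
        obtain ⟨s, hs, hsi⟩ := Nat.exists_prime_and_dvd (n := i) (by omega)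
        obtain ⟨g, hg, -⟩ := hT.into_D R hperf hs (hsi.trans hd) (x := y) (by rw [hy]; exact hsi.mul_left 2)
        exact ⟨g, hg y rfl, by rw [orderOf_conj', hy]⟩)
  rw [hT.ord2i R hodd hd, hT.card_N R hperf hm, R.cG'] at h
  apply Nat.eq_of_mul_eq_mul_right (show 0 < 3 * (3 ^ (2 * m + 1) + 1) by positivity)
  calc 2 * Nat.card {g : G // orderOf g = 2 * i} * (3 * (3 ^ (2 * m + 1) + 1)) = Nat.card {g : G // orderOf g = 2 * i} * (6 * (3 ^ (2 * m + 1) + 1)) := by ring
    _ = _ := by rw [h]; ring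

theorem RG.TT.ncount (hperf : commutator G = ⊤) (ρ : G →* Matrix (Fin 7) (Fin 7) K) (hρ : Function.Injective ρ) {T : Subgroup G} (hT : R.TT T)
    (hN : Nat.card ↥(Subgroup.normalizer (T : Set G)) = 6 * Nat.card T) {c : ℕ} (hc : Nat.card T * c = Ph m) {i : ℕ} (hi : 1 < i) (hd : i ∣ Nat.card T) :
    6 * Nat.card {g : G // orderOf g = i} = Nat.totient i * (3 ^ (2 * m + 1)) ^ 3 * ((3 ^ (2 * m + 1)) ^ 2 - 1) * c := by
  have hq := q_pos m
  have h := count_ord (T := ⊤) (N := Subgroup.normalizer (T : Set G)) (i := i) (X := {x | x ∈ T ∧ orderOf x = i})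
    (by rintro x ⟨-, hx⟩; exact hx)
    (by rintro n hn x ⟨hx, ho⟩
        exact ⟨(Subgroup.mem_normalizer_iff.1 hn x).1 hx, by rw [orderOf_conj', ho]⟩)
    (by rintro g x ⟨hx, ho⟩ ⟨hg, -⟩
        have hx1 : x ≠ 1 := by rintro rfl; rw [orderOf_one] at ho; omega
        have hg1 : g * x * g⁻¹ ≠ 1 := by
          intro e
          apply hx1
          have : x = g⁻¹ * (g * x * g⁻¹) * g := by group
          rw [this, e]; group
        have h3 : T.map (MulAut.conj g).toMonoidHom = T := by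
          ext y
          have hyT : y ∈ T ↔ y ∈ Subgroup.centralizer {g * x * g⁻¹} := by rw [hT.cen _ hg hg1]
          have hyT' : g⁻¹ * y * g ∈ T ↔ g⁻¹ * y * g ∈ Subgroup.centralizer {x} := by rw [hT.cen x hx hx1]
          rw [map_conj_mem, hyT, hyT', Subgroup.mem_centralizer_singleton_iff, Subgroup.mem_centralizer_singleton_iff]
          constructor
          · intro e
            calc y * (g * x * g⁻¹) = g * (g⁻¹ * y * g * x) * g⁻¹ := by group
              _ = _ := by rw [e]; group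
          · intro e
            calc g⁻¹ * y * g * x = g⁻¹ * (y * (g * x * g⁻¹)) * g := by group
              _ = _ := by rw [e]; group
        rw [Subgroup.mem_normalizer_iff]
        intro y
        have h4 := map_conj_mem T g (g * y * g⁻¹)
        have e1 : g⁻¹ * (g * y * g⁻¹) * g = y := by group
        rw [e1, h3] at h4
        exact h4.symm)
    (by intro y hy
        obtain ⟨s, hs, hsi⟩ := Nat.exists_prime_and_dvd (n := i) (by omega)
        obtain ⟨g, hg, -⟩ := hT.into R hperf ρ hρ hs (hsi.trans hd) (y := y) (by rw [hy]; exact hsi)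
        exact ⟨g, hg, by rw [orderOf_conj', hy]⟩)
  rw [card_ord_cyc hT.cyc hd, hN, R.cG', ← hc] at h
  have hpos : 0 < Nat.card T := Nat.card_pos
  have hsq : (3 ^ (2 * m + 1)) ^ 2 - 1 = (3 ^ (2 * m + 1) - 1) * (3 ^ (2 * m + 1) + 1) := by
    generalize 3 ^ (2 * m + 1) = q at *
    have h1 : 1 ≤ q ^ 2 := Nat.one_le_pow _ _ (by omega)
    zify [h1, (by omega : 1 ≤ q)]; ring
  apply Nat.eq_of_mul_eq_mul_right hpos
  calc 6 * Nat.card {g : G // orderOf g = i} * Nat.card T = Nat.card {g : G // orderOf g = i} * (6 * Nat.card T) := by ring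
    _ = _ := by rw [h, hsq]; ring

include R in
theorem RG.counts (hperf : commutator G = ⊤) (ρ : G →* Matrix (Fin 7) (Fin 7) K) (hρ : Function.Injective ρ) (hm : 1 ≤ m) :
    Nat.card {g : G // orderOf g = 2} = (3 ^ (2 * m + 1)) ^ 2 * ((3 ^ (2 * m + 1)) ^ 2 - 3 ^ (2 * m + 1) + 1) ∧
    Nat.card {g : G // orderOf g = 3} = ((3 ^ (2 * m + 1)) ^ 2 - 1) * ((3 ^ (2 * m + 1)) ^ 3 + 1) ∧
    Nat.card {g : G // orderOf g = 6} = (3 ^ (2 * m + 1)) ^ 2 * (3 ^ (2 * m + 1) - 1) * ((3 ^ (2 * m + 1)) ^ 3 + 1) ∧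
    Nat.card {g : G // orderOf g = 9} = (3 ^ (2 * m + 1)) ^ 2 * (3 ^ (2 * m + 1) - 1) * ((3 ^ (2 * m + 1)) ^ 3 + 1) ∧
    (∀ i : ℕ, 2 < i → i ∣ 3 ^ (2 * m + 1) - 1 →
      2 * Nat.card {g : G // orderOf g = i} = Nat.totient i * (3 ^ (2 * m + 1)) ^ 3 * ((3 ^ (2 * m + 1)) ^ 3 + 1)) ∧
    (∀ i : ℕ, 1 < i → i ∣ (3 ^ (2 * m + 1) + 1) / 4 →
      6 * Nat.card {g : G // orderOf g = i} =
          Nat.totient i * (3 ^ (2 * m + 1)) ^ 3 * (3 ^ (2 * m + 1) - 1) * ((3 ^ (2 * m + 1)) ^ 2 - 3 ^ (2 * m + 1) + 1) ∧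
        2 * Nat.card {g : G // orderOf g = 2 * i} =
          Nat.totient i * (3 ^ (2 * m + 1)) ^ 3 * (3 ^ (2 * m + 1) - 1) * ((3 ^ (2 * m + 1)) ^ 2 - 3 ^ (2 * m + 1) + 1)) ∧
    (∀ i : ℕ, 1 < i → i ∣ 3 ^ (2 * m + 1) - 3 ^ (m + 1) + 1 →
      6 * Nat.card {g : G // orderOf g = i} =
        Nat.totient i * (3 ^ (2 * m + 1)) ^ 3 * ((3 ^ (2 * m + 1)) ^ 2 - 1) * (3 ^ (2 * m + 1) + 3 ^ (m + 1) + 1)) ∧
    (∀ i : ℕ, 1 < i → i ∣ 3 ^ (2 * m + 1) + 3 ^ (m + 1) + 1 →
      6 * Nat.card {g : G // orderOf g = i} =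
        Nat.totient i * (3 ^ (2 * m + 1)) ^ 3 * ((3 ^ (2 * m + 1)) ^ 2 - 1) * (3 ^ (2 * m + 1) - 3 ^ (m + 1) + 1)) := by
  obtain ⟨T1, T2, t1, t2, h3, h4, h5, h6, h7⟩ := R.two_tori hperf ρ hρ hm
  obtain ⟨D, a, hT⟩ := R.exists_TD
  refine ⟨R.n2count hperf, R.n3count, R.n6count hperf, R.n9count, fun i hi hd => R.nHcount hm hi hd, fun i hi hd =>
    ⟨hT.nAcount R hperf hm hi hd, hT.n2Acount R hperf hm hi hd⟩, fun i hi hd => ?_, fun i hi hd => ?_⟩
  · rw [← h5]
    exact t1.ncount R hperf ρ hρ h6 h3 hi (by rw [h4]; exact hd)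
  · rw [← h4]
    exact t2.ncount R hperf ρ hρ h7 (by rw [mul_comm]; exact h3) hi (by rw [h5]; exact hd)

end CfsgLib.ReeA
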