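import Cfsg.Agent.LibRee27
import Cfsg.Agent.LibSolvMin

set_option autoImplicit false
set_option linter.unusedSectionVars false
set_option linter.unusedVariables false
set_option linter.unusedSimpArgs false

/-! Groups of Ree type: solvable subgroups -/

namespace CfsgLib.ReeA

open Matrix CfsgLib.Chev CfsgLib.Rank1 CfsgLib.SL2P

variable {G : Type*} [Group G] [Finite G] {K : Type*} [Field K] [Fintype K] {m : ℕ} (R : RG G K m)

/-- the local subgroups -/
def QQ (m : ℕ) {G : Type*} [Group G] (S : Subgroup G) : Prop :=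
  ∃ A : Subgroup G, S ≤ Subgroup.normalizer (A : Set G) ∧
      ((∃ P : Sylow 2 G, A = P) ∨
       (∃ P : Sylow 3 G, A = P) ∨
       (IsCyclic A ∧ (Nat.card A = (3 ^ (2 * m + 1) - 1) / 2 ∨ Nat.card A = (3 ^ (2 * m + 1) + 1) / 4 ∨
          Nat.card A = 3 ^ (2 * m + 1) - 3 ^ (m + 1) + 1 ∨ Nat.card A = 3 ^ (2 * m + 1) + 3 ^ (m + 1) + 1)))

theorem QQ_cyc {S V T : Subgroup G} {g : G} (hS : S ≤ Subgroup.normalizer (V : Set G)) (hT : IsCyclic T)
    (hc : Nat.card T = (3 ^ (2 * m + 1) - 1) / 2 ∨ Nat.card T = (3 ^ (2 * m + 1) + 1) / 4 ∨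
          Nat.card T = 3 ^ (2 * m + 1) - 3 ^ (m + 1) + 1 ∨ Nat.card T = 3 ^ (2 * m + 1) + 3 ^ (m + 1) + 1)
    (hN : Subgroup.normalizer (V.map (MulAut.conj g).toMonoidHom : Set G) ≤ Subgroup.normalizer (T : Set G)) : QQ m S := by
  refine ⟨T.map (MulAut.conj g⁻¹).toMonoidHom, ?_, Or.inr (Or.inr ⟨isCyclic_map_conj _ _ hT, by rw [card_map_conj]; exact hc⟩)⟩
  intro x hx
  rw [norm_conj, inv_inv]
  apply hN
  rw [norm_conj]
  have : g⁻¹ * (g * x * g⁻¹) * g = x := by group
  rw [this]; exact hS hx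

theorem ne_bot_map {V : Subgroup G} {g : G} (h : V ≠ ⊥) : V.map (MulAut.conj g).toMonoidHom ≠ ⊥ := by
  intro e
  apply h
  rwa [Subgroup.map_eq_bot_iff_of_injective _ (MulAut.conj g).injective] at e

include R in
theorem RG.syl3 (A : Subgroup G) (hA : Nat.card A = (3 ^ (2 * m + 1)) ^ 3) : ∃ P : Sylow 3 G, A = P := by
  have : Fact (Nat.Prime 3) := ⟨Nat.prime_three⟩
  have h1 : Nat.card G = (3 ^ (2 * m + 1)) ^ 3 * ((3 ^ (2 * m + 1) - 1) * ((3 ^ (2 * m + 1)) ^ 3 + 1)) := by rw [R.cG]; ring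
  have hq := q_pos m
  have hne : (3 ^ (2 * m + 1) - 1) * ((3 ^ (2 * m + 1)) ^ 3 + 1) ≠ 0 := by
    have : 0 < 3 ^ (2 * m + 1) - 1 := by omega
    positivity
  refine ⟨Sylow.ofCard A ?_, rfl⟩
  rw [hA, h1, Nat.factorization_mul (by positivity) hne, Finsupp.add_apply, Nat.factorization_eq_zero_of_not_dvd (not3 m), add_zero,
    ← pow_mul, Nat.Prime.factorization_pow Nat.prime_three]
  simp

include R in
theorem RG.QQ_odd (hperf : commutator G = ⊤) (ρ : G →* Matrix (Fin 7) (Fin 7) K) (hρ : Function.Injective ρ) (hm : 1 ≤ m) {p : ℕ} (hp : p.Prime) (hp2 : p ≠ 2)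
    {V S : Subgroup G} (hV : IsPGroup p V) (hV1 : V ≠ ⊥) (hS : S ≤ Subgroup.normalizer (V : Set G)) : QQ m S := by
  have : Fact p.Prime := ⟨hp⟩
  have hpG : p ∣ Nat.card G := by
    obtain ⟨x, hx, hx1⟩ := exists_ne_one hV1
    obtain ⟨k, hk⟩ := IsPGroup.iff_orderOf.1 hV ⟨x, hx⟩
    rw [← Subgroup.orderOf_coe] at hk
    simp only at hk
    have hk0 : k ≠ 0 := by
      rintro rfl
      rw [pow_zero, orderOf_eq_one_iff] at hk
      exact hx1 hk
    exact (dvd_pow_self p hk0).trans (by rw [← hk]; exact orderOf_dvd_natCard x)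
  have hodd : ∀ x ∈ V, Odd (orderOf x) := by
    intro x hx
    obtain ⟨k, hk⟩ := IsPGroup.iff_orderOf.1 hV ⟨x, hx⟩
    rw [← Subgroup.orderOf_coe] at hk
    simp only at hk
    rw [hk]
    exact (hp.odd_of_ne_two hp2).pow
  rcases R.primes hp hpG with h | h | ⟨h2, h⟩ | h | h
  · exact absurd h hp2
  · -- p = 3
    subst h
    obtain ⟨g, hg⟩ := conj_into R.U (p := 3) (by
      intro hi
      have h1 := Subgroup.card_mul_index R.U
      rw [R.cU, R.cG] at h1
      have h3 : R.U.index = (3 ^ (2 * m + 1) - 1) * ((3 ^ (2 * m + 1)) ^ 3 + 1) := by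
        apply Nat.eq_of_mul_eq_mul_left (show 0 < (3 ^ (2 * m + 1)) ^ 3 by positivity)
        rw [h1]; ring
      rw [h3] at hi
      exact not3 m hi) V hV
    refine ⟨R.U.map (MulAut.conj g⁻¹).toMonoidHom, ?_, Or.inr (Or.inl (R.syl3 _ (by rw [card_map_conj, R.cU])))⟩
    intro x hx
    rw [norm_conj, inv_inv]
    obtain ⟨v, hv, hv1⟩ := exists_ne_one hV1
    have h1 : x * v * x⁻¹ ∈ V := (Subgroup.mem_normalizer_iff.1 (hS hx) v).1 hv
    have hB : g * x * g⁻¹ ∈ R.B := by
      apply R.U_TI (hg v hv)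
      · intro e
        apply hv1
        have : v = g⁻¹ * (g * v * g⁻¹) * g := by group
        rw [this, e]; group
      · have := hg _ h1
        have e : g * x * g⁻¹ * (g * v * g⁻¹) * (g * x * g⁻¹)⁻¹ = g * (x * v * x⁻¹) * g⁻¹ := by group
        rw [e]; exact this
    rw [Subgroup.mem_normalizer_iff]
    intro u
    constructor
    · exact fun hu => R.Bnorm hB hu
    · intro hu
      have h4 := R.Bnorm (Subgroup.inv_mem _ hB) hu
      have e : (g * x * g⁻¹)⁻¹ * (g * x * g⁻¹ * u * (g * x * g⁻¹)⁻¹) * (g * x * g⁻¹)⁻¹⁻¹ = u := by group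
      rwa [e] at h4
  · -- p | q - 1
    obtain ⟨g, hg⟩ := conj_into R.H (R.index_H hp h2 h) V hV
    have hle : V.map (MulAut.conj g).toMonoidHom ≤ R.H := by
      rintro _ ⟨x, hx, rfl⟩; exact hg x hx
    obtain ⟨w, hw, hwo⟩ := exists_gen R.Hc
    rw [R.cH] at hwo
    have hwH : w ∈ R.H := by rw [hw]; exact Subgroup.mem_zpowers w
    have hA : Subgroup.zpowers (w ^ 2) ≤ R.H := by rw [Subgroup.zpowers_le]; exact Subgroup.pow_mem _ hwH 2
    have h8 := hmod8 m
    apply QQ_cyc (m := m) (g := g) (T := Subgroup.zpowers (w ^ 2)) hS inferInstance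
    · left
      rw [Nat.card_zpowers, orderOf_pow' w (by norm_num), hwo]
      have : Nat.gcd (3 ^ (2 * m + 1) - 1) 2 = 2 := Nat.gcd_eq_right (by generalize 3 ^ (2 * m + 1) = q at *; omega)
      rw [this]
    · refine le_trans ?_ (norm_sub_cyclic _ _ R.Hc hA)
      have h3 := norm_le_norm_cent (V.map (MulAut.conj g).toMonoidHom)
      rwa [R.cent_Hsub hle (ne_bot_map hV1) (by
        rw [card_map_conj]
        obtain ⟨k, hk⟩ := (IsPGroup.iff_card (p := p) (G := ↥V)).1 hV
        rw [hk]; exact (hp.odd_of_ne_two hp2).pow)] at h3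
  · -- p | (q+1)/4
    obtain ⟨D, a, hT⟩ := R.exists_TD
    obtain ⟨g, hg⟩ := conj_into D (hT.index_D R hp h) V hV
    have hle : V.map (MulAut.conj g).toMonoidHom ≤ Subgroup.zpowers a := by
      rintro _ ⟨x, hx, rfl⟩
      apply hT.odd R (hg x hx)
      show Odd (orderOf (g * x * g⁻¹))
      rw [orderOf_conj']; exact hodd x hx
    apply QQ_cyc (m := m) (g := g) (T := Subgroup.zpowers a) hS inferInstance
    · right; left; rw [Nat.card_zpowers, hT.oa]
    · exact (hT.norm_sub R hperf hle (ne_bot_map hV1)).le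
  · -- p | Ph
    obtain ⟨T1, T2, t1, t2, h3, h4, h5, h6, h7⟩ := R.two_tori hperf ρ hρ hm
    rw [← h3] at h
    rcases (Nat.Prime.dvd_mul hp).1 h with h8 | h8
    · obtain ⟨g, hg⟩ := conj_into T1 (t1.index R hp h8) V hV
      have hle : V.map (MulAut.conj g).toMonoidHom ≤ T1 := by
        rintro _ ⟨x, hx, rfl⟩; exact hg x hx
      exact QQ_cyc (m := m) (g := g) (T := T1) hS t1.cyc (Or.inr (Or.inr (Or.inl h4))) (t1.norm_eq R hle (ne_bot_map hV1)).le
    · obtain ⟨g, hg⟩ := conj_into T2 (t2.index R hp h8) V hV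
      have hle : V.map (MulAut.conj g).toMonoidHom ≤ T2 := by
        rintro _ ⟨x, hx, rfl⟩; exact hg x hx
      exact QQ_cyc (m := m) (g := g) (T := T2) hS t2.cyc (Or.inr (Or.inr (Or.inr h5))) (t2.norm_eq R hle (ne_bot_map hV1)).le

/-- four-groups are conjugate -/
theorem RG.four_conj (hperf : commutator G = ⊤) {V : Subgroup G} (hV : Nat.card V = 4) :
    ∃ g : G, R.τ ∈ V.map (MulAut.conj g).toMonoidHom ∧ R.n ∈ V.map (MulAut.conj g).toMonoidHom := by
  have : Fact (Nat.Prime 2) := ⟨Nat.prime_two⟩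
  have hV2 : IsPGroup 2 V := IsPGroup.of_card (n := 2) (by rw [hV]; norm_num)
  obtain ⟨P, h⟩ := R.exists_PD
  obtain ⟨S, hS⟩ := hV2.exists_le_sylow
  obtain ⟨k, hk⟩ := h.conj R S
  have h1 : V.map (MulAut.conj k⁻¹).toMonoidHom ≤ P := by
    rintro _ ⟨x, hx, rfl⟩
    have := (hk x).1 (hS hx)
    show k⁻¹ * x * k⁻¹⁻¹ ∈ P
    rwa [inv_inv]
  obtain ⟨x, hx, hx1⟩ := exists_ne_one (A := V.map (MulAut.conj k⁻¹).toMonoidHom) (by
    intro e
    have := card_map_conj V k⁻¹
    rw [e, Subgroup.card_bot, hV] at this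
    omega)
  have hxO : x ∈ {y | ∃ g ∈ Subgroup.normalizer (P : Set G), y = g * R.τ * g⁻¹} := by
    rw [(h.orbit R hperf).1]; exact ⟨h1 hx, hx1⟩
  obtain ⟨l, hl, hxl⟩ := hxO
  set W := V.map (MulAut.conj (l⁻¹ * k⁻¹)).toMonoidHom with hW
  have hWc : Nat.card W = 4 := by rw [hW, card_map_conj, hV]
  have hWe : W = (V.map (MulAut.conj k⁻¹).toMonoidHom).map (MulAut.conj l⁻¹).toMonoidHom := by rw [map_conj_conj]
  have hWτ : R.τ ∈ W := by
    rw [hWe, map_conj_mem, inv_inv, ← hxl]; exact hx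
  have hWP : W ≤ P := by
    intro y hy
    rw [hWe, map_conj_mem, inv_inv] at hy
    have := (Subgroup.mem_normalizer_iff.1 (Subgroup.inv_mem _ hl) _).1 (h1 hy)
    have e : l⁻¹ * (l * y * l⁻¹) * l⁻¹⁻¹ = y := by group
    rwa [e] at this
  obtain ⟨y, hyW, hy1, hyτ⟩ : ∃ y ∈ W, y ≠ 1 ∧ y ≠ R.τ := by
    by_contra hcon
    push Not at hcon
    have h2 : (W : Set G) ⊆ {1, R.τ} := by
      intro y hy
      by_cases h3 : y = 1
      · simp [h3]
      · simp [hcon y hy h3]
    have h3 := Set.ncard_le_ncard h2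
    have h4 : Set.ncard (W : Set G) = 4 := hWc
    have h5 : Set.ncard ({1, R.τ} : Set G) ≤ 2 := (Set.ncard_insert_le _ _).trans (by rw [Set.ncard_singleton])
    omega
  have hwn := R.wn
  have hwz := R.wz
  have hwτ := R.wτ
  set w := R.φ (xx 1) with hw
  have hwnz : w * (R.n * R.z) * w⁻¹ = R.n := by
    have : w * (R.n * R.z) * w⁻¹ = (w * R.n * w⁻¹) * (w * R.z * w⁻¹) := by group
    rw [this, hwn, hwz, R.nz, ← mul_assoc, R.z2, one_mul]
  -- step
  have hstep : ∀ g : G, R.τ ∈ V.map (MulAut.conj g).toMonoidHom → R.τ ∈ V.map (MulAut.conj (w * g)).toMonoidHom := by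
    intro g hg
    rw [← map_conj_conj, map_conj_mem]
    have : w⁻¹ * R.τ * w = R.τ := by nth_rewrite 1 [← hwτ]; group
    rw [this]; exact hg
  have hstep2 : ∀ g a b : G, w * a * w⁻¹ = b → a ∈ V.map (MulAut.conj g).toMonoidHom → b ∈ V.map (MulAut.conj (w * g)).toMonoidHom := by
    intro g a b hab hg
    rw [← map_conj_conj, map_conj_mem]
    have : w⁻¹ * b * w = a := by rw [← hab]; group
    rw [this]; exact hg
  have key : ∀ y ∈ W, (y = R.n ∨ y = R.z ∨ y = R.n * R.z) → ∃ g : G, R.τ ∈ V.map (MulAut.conj g).toMonoidHom ∧ R.n ∈ V.map (MulAut.conj g).toMonoidHom := by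
    rintro y hy (rfl | rfl | rfl)
    · exact ⟨_, hWτ, hy⟩
    · exact ⟨_, hstep _ (hstep _ hWτ), hstep2 _ _ _ hwnz (hstep2 _ _ _ hwz hy)⟩
    · exact ⟨_, hstep _ hWτ, hstep2 _ _ _ hwnz hy⟩
  have hτy : ∀ e, y = R.τ * e → e ∈ W := by
    intro e he
    have : e = R.τ * y := by rw [he, ← mul_assoc, R.τ2, one_mul]
    rw [this]; exact Subgroup.mul_mem _ hWτ hyW
  rcases h.el y (hWP hyW) with e | e | e | e | e | e | e | e
  · exact absurd e hy1
  · exact absurd e hyτ
  · exact key y hyW (Or.inl e)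
  · exact key y hyW (Or.inr (Or.inl e))
  · exact key _ (hτy _ e) (Or.inl rfl)
  · exact key _ (hτy _ e) (Or.inr (Or.inl rfl))
  · exact key y hyW (Or.inr (Or.inr e))
  · rw [mul_assoc] at e
    exact key _ (hτy _ e) (Or.inr (Or.inr rfl))

include R in
theorem RG.syl2' {A : Subgroup G} (hA : Nat.card A = 8) : ∃ P : Sylow 2 G, A = P := by
  have : Fact (Nat.Prime 2) := ⟨Nat.prime_two⟩
  have hPG : IsPGroup 2 A := IsPGroup.of_card (n := 3) (by rw [hA]; norm_num)
  obtain ⟨S0, hS0⟩ := hPG.exists_le_sylow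
  exact ⟨S0, Subgroup.eq_of_le_of_card_ge hS0 (by rw [hA]; exact (R.card_syl2 S0).le)⟩

include R in
theorem RG.QQ_two (hperf : commutator G = ⊤) (hm : 1 ≤ m) {V S : Subgroup G} (hV : IsPGroup 2 V) (hV4 : 3 ≤ Nat.card V)
    (hS : S ≤ Subgroup.normalizer (V : Set G)) : QQ m S := by
  have : Fact (Nat.Prime 2) := ⟨Nat.prime_two⟩
  obtain ⟨P, hP⟩ := hV.exists_le_sylow
  have h8 : Nat.card V ∣ 8 := by
    have := Subgroup.card_dvd_of_le hP
    rwa [R.card_syl2 P] at this
  have h48 : Nat.card V = 4 ∨ Nat.card V = 8 := by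
    have h1 := Nat.le_of_dvd (by norm_num) h8
    generalize Nat.card V = c at *
    interval_cases c <;> omega
  rcases h48 with h4 | h4
  · obtain ⟨D, a, hT⟩ := R.exists_TD
    obtain ⟨g, hτ, hn⟩ := R.four_conj hperf h4
    apply QQ_cyc (m := m) (g := g) (T := Subgroup.zpowers a) hS inferInstance
    · right; left; rw [Nat.card_zpowers, hT.oa]
    · set W := V.map (MulAut.conj g).toMonoidHom with hW
      have hWc : Set.ncard (W : Set G) = 4 := by
        have : Nat.card W = 4 := by rw [hW, card_map_conj, h4]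
        exact this
      have h5 : Set.ncard ({1, R.τ, R.n, R.τ * R.n} : Set G) = 4 := by
        have e3 : R.n ≠ R.τ * R.n := fun e => R.τ1 (right_eq_mul.1 e)
        rw [Set.ncard_insert_of_notMem, Set.ncard_insert_of_notMem, Set.ncard_pair e3]
        · simp only [Set.mem_insert_iff, Set.mem_singleton_iff, not_or]
          exact ⟨fun e => R.τφ ww (by rw [R.hw, e]), fun e => R.n1 (left_eq_mul.1 e)⟩
        · simp only [Set.mem_insert_iff, Set.mem_singleton_iff, not_or]
          exact ⟨R.τ1.symm, R.n1.symm, R.τn1.symm⟩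
      have hWE : ({1, R.τ, R.n, R.τ * R.n} : Set G) = (W : Set G) := by
        refine Set.eq_of_subset_of_ncard_le ?_ ?_ (Set.toFinite _)
        · rintro y (rfl | rfl | rfl | rfl)
          · exact W.one_mem
          · exact hτ
          · exact hn
          · exact W.mul_mem hτ hn
        · rw [hWc, h5]
      intro x hx
      have hx' := Subgroup.inv_mem _ hx
      have hmem : ∀ e ∈ W, e ≠ 1 → x⁻¹ * e * x = R.τ ∨ x⁻¹ * e * x = R.n ∨ x⁻¹ * e * x = R.τ * R.n := by
        intro e he he1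
        have h6 := (Subgroup.mem_normalizer_iff.1 hx' e).1 he
        rw [inv_inv, ← SetLike.mem_coe, ← hWE] at h6
        rcases h6 with h7 | h7 | h7 | h7
        · exfalso; apply he1
          have : e = x * (x⁻¹ * e * x) * x⁻¹ := by group
          rw [this, h7]; group
        · exact Or.inl h7
        · exact Or.inr (Or.inl h7)
        · exact Or.inr (Or.inr h7)
      exact hT.norm_E R hm (hmem _ hτ R.τ1) (hmem _ hn R.n1)
  · exact ⟨V, hS, Or.inl (R.syl2' h4)⟩

include R in
theorem RG.QQ_Cτ (hperf : commutator G = ⊤) (ρ : G →* Matrix (Fin 7) (Fin 7) K) (hρ : Function.Injective ρ) (hm : 1 ≤ m) {S : Subgroup G}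
    (hsolv : Group.IsSolvable S) (hS : ∀ x ∈ S, x * R.τ = R.τ * x) : QQ m S := by
  have : Fact (Nat.Prime 2) := ⟨Nat.prime_two⟩
  by_cases hL : S ⊓ R.φ.range = ⊥
  · have hsq : ∀ x ∈ S, x * x = 1 := by
      intro x hx
      have h1 : x * x ∈ S ⊓ R.φ.range := by
        refine ⟨Subgroup.mul_mem _ hx hx, ?_⟩
        obtain ⟨A, h | h⟩ := (R.cen x).1 (hS x hx).symm
        · exact ⟨A * A, by rw [map_mul, ← h]⟩
        · refine ⟨A * A, ?_⟩
          have hc : R.τ * R.φ A = R.φ A * R.τ := R.τcen A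
          rw [map_mul, h]
          calc R.φ A * R.φ A = R.φ A * (R.τ * R.τ) * R.φ A := by rw [R.τ2, mul_one]
            _ = (R.φ A * R.τ) * (R.τ * R.φ A) := by group
            _ = _ := by rw [← hc]
      rw [hL, Subgroup.mem_bot] at h1
      exact h1
    have hSp : IsPGroup 2 S := by
      rintro ⟨x, hx⟩
      refine ⟨1, Subtype.ext ?_⟩
      show x ^ (2 ^ 1) = 1
      rw [pow_one, pow_two]; exact hsq x hx
    obtain ⟨P, hP⟩ := hSp.exists_le_sylow
    exact ⟨P, hP.trans Subgroup.le_normalizer, Or.inl ⟨P, rfl⟩⟩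
  · set N := (S ⊓ R.φ.range).subgroupOf S with hN
    have hNn : N.Normal := by
      constructor
      intro x hx g
      rw [hN, Subgroup.mem_subgroupOf] at hx ⊢
      refine ⟨Subgroup.mul_mem _ (Subgroup.mul_mem _ g.2 hx.1) (Subgroup.inv_mem _ g.2), ?_⟩
      obtain ⟨B, hB⟩ := hx.2
      obtain ⟨A, h | h⟩ := (R.cen g.1).1 (hS g.1 g.2).symm
      · refine ⟨A * B * A⁻¹, ?_⟩
        rw [map_mul, map_mul, map_inv, hB]
        show _ = (g : G) * x * (g : G)⁻¹
        rw [← h]
      · refine ⟨A * B * A⁻¹, ?_⟩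
        have hc := R.τcen (A * B * A⁻¹)
        show _ = (g : G) * x * (g : G)⁻¹
        rw [h, ← hB]
        rw [map_mul, map_mul, map_inv] at hc ⊢
        calc R.φ A * R.φ B * (R.φ A)⁻¹ = R.τ * (R.φ A * R.φ B * (R.φ A)⁻¹) * R.τ⁻¹ := by rw [hc]; group
          _ = _ := by group
    have hNb : N ≠ ⊥ := by
      intro e
      apply hL
      rw [hN, Subgroup.subgroupOf_eq_bot, disjoint_iff] at e
      rw [← e]
      exact (inf_of_le_left inf_le_left).symm
    have := hsolv
    obtain ⟨M, p, hp, hMin, hMN, -, hMp, hMpg⟩ := CfsgLib.SolvMin.exists_minNormal_pgroup_of_solvable N hNb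
    set V := M.map S.subtype with hV
    have hVb : V ≠ ⊥ := by
      intro e
      rw [hV, Subgroup.map_eq_bot_iff_of_injective _ S.subtype_injective] at e
      exact hMin.2.1 e
    have hVL : ∀ x ∈ V, x ∈ R.φ.range := by
      rintro _ ⟨x, hx, rfl⟩
      have := hMN hx
      rw [hN, Subgroup.mem_subgroupOf] at this
      exact this.2
    have hconj : ∀ s ∈ S, ∀ v ∈ V, s * v * s⁻¹ ∈ V := by
      rintro s hs _ ⟨x, hx, rfl⟩
      exact ⟨_, hMin.1.conj_mem x hx ⟨s, hs⟩, rfl⟩
    have hSV : S ≤ Subgroup.normalizer (V : Set G) := by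
      intro s hs
      rw [Subgroup.mem_normalizer_iff]
      intro v
      constructor
      · exact hconj s hs v
      · intro h
        have h1 := hconj s⁻¹ (Subgroup.inv_mem _ hs) _ h
        have e : s⁻¹ * (s * v * s⁻¹) * s⁻¹⁻¹ = v := by group
        rwa [e] at h1
    by_cases hp2 : p = 2
    · subst hp2
      have hVsq : ∀ x ∈ V, x * x = 1 := by
        rintro _ ⟨x, hx, rfl⟩
        have := hMp x hx
        rw [pow_two] at this
        exact congrArg Subtype.val this
      have hcτ : ∀ x ∈ V, R.τ * x = x * R.τ := by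
        intro x hx
        obtain ⟨A, hA⟩ := hVL x hx
        rw [← hA]; exact R.τcen A
      let W : Subgroup G :=
        { carrier := {x | x ∈ V ∨ R.τ * x ∈ V}
          one_mem' := Or.inl V.one_mem
          mul_mem' := by
            rintro x y (hx | hx) (hy | hy)
            · exact Or.inl (V.mul_mem hx hy)
            · right
              have : R.τ * (x * y) = x * (R.τ * y) := by rw [← mul_assoc, hcτ x hx, mul_assoc]
              rw [this]; exact V.mul_mem hx hy
            · right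
              have : R.τ * (x * y) = (R.τ * x) * y := by rw [mul_assoc]
              rw [this]; exact V.mul_mem hx hy
            · left
              have : x * y = (R.τ * x) * (R.τ * y) := by
                have h1 := hcτ _ hx
                calc x * y = (R.τ * R.τ) * x * y := by rw [R.τ2, one_mul]
                  _ = (R.τ * (R.τ * x)) * y := by group
                  _ = (R.τ * x * R.τ) * y := by rw [h1]
                  _ = _ := by group
              rw [this]; exact V.mul_mem hx hy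
          inv_mem' := by
            rintro x (hx | hx)
            · exact Or.inl (V.inv_mem hx)
            · right
              have h1 := hcτ _ hx
              have : R.τ * x⁻¹ = (R.τ * x)⁻¹ := by
                have h2 : R.τ * x = x * R.τ := by
                  have : R.τ * (R.τ * x) = R.τ * (x * R.τ) := by rw [h1]; group
                  exact mul_left_cancel this
                rw [h2, _root_.mul_inv_rev, R.τi]
              rw [this]; exact V.inv_mem hx }
      have hWm : ∀ x, x ∈ W ↔ x ∈ V ∨ R.τ * x ∈ V := fun x => Iff.rfl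
      have hWsq : ∀ x ∈ W, x * x = 1 := by
        rintro x (hx | hx)
        · exact hVsq x hx
        · have h1 := hcτ _ hx
          have h2 : x = R.τ * (R.τ * x) := by rw [← mul_assoc, R.τ2, one_mul]
          have h3 : x * x = (R.τ * R.τ) * ((R.τ * x) * (R.τ * x)) := by
            calc x * x = (R.τ * (R.τ * x)) * (R.τ * (R.τ * x)) := by rw [← h2]
              _ = R.τ * ((R.τ * x) * R.τ) * (R.τ * x) := by group
              _ = R.τ * (R.τ * (R.τ * x)) * (R.τ * x) := by rw [← h1]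
              _ = _ := by group
          rw [h3, R.τ2, hVsq _ hx, one_mul]
      have hWp : IsPGroup 2 W := by
        rintro ⟨x, hx⟩
        refine ⟨1, Subtype.ext ?_⟩
        show x ^ (2 ^ 1) = 1
        rw [pow_one, pow_two]; exact hWsq x hx
      obtain ⟨v, hv, hv1⟩ := exists_ne_one hVb
      have hW3 : 3 ≤ Nat.card W := by
        have h1 : ({1, R.τ, v} : Set G) ⊆ (W : Set G) := by
          rintro y (rfl | rfl | rfl)
          · exact W.one_mem
          · right; rw [R.τ2]; exact V.one_mem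
          · exact Or.inl hv
        have h2 : Set.ncard ({1, R.τ, v} : Set G) = 3 := by
          rw [Set.ncard_insert_of_notMem, Set.ncard_pair]
          · intro e
            obtain ⟨A, hA⟩ := hVL v hv
            exact R.τφ A (by rw [hA, ← e])
          · simp only [Set.mem_insert_iff, Set.mem_singleton_iff, not_or]
            exact ⟨R.τ1.symm, hv1.symm⟩
        have h3 := Set.ncard_le_ncard h1
        rw [h2] at h3
        exact h3
      apply R.QQ_two hperf hm hWp hW3
      intro s hs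
      have hsτ := hS s hs
      have hc2 : ∀ t ∈ S, ∀ y ∈ W, t * y * t⁻¹ ∈ W := by
        rintro t ht y (hy | hy)
        · exact Or.inl (hconj t ht y hy)
        · right
          have := hconj t ht _ hy
          have e : R.τ * (t * y * t⁻¹) = t * (R.τ * y) * t⁻¹ := by
            calc R.τ * (t * y * t⁻¹) = (R.τ * t) * y * t⁻¹ := by group
              _ = _ := by rw [← hS t ht]; group
          rw [e]; exact this
      rw [Subgroup.mem_normalizer_iff]
      intro y
      constructor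
      · exact hc2 s hs y
      · intro h
        have h1 := hc2 s⁻¹ (Subgroup.inv_mem _ hs) _ h
        have e : s⁻¹ * (s * y * s⁻¹) * s⁻¹⁻¹ = y := by group
        rwa [e] at h1
    · exact R.QQ_odd hperf ρ hρ hm hp hp2 (hMpg.map _) hVb hSV

include R in
theorem RG.solvable (hperf : commutator G = ⊤) (ρ : G →* Matrix (Fin 7) (Fin 7) K) (hρ : Function.Injective ρ) (hm : 1 ≤ m) (S : Subgroup G)
    (hsolv : Group.IsSolvable S) : QQ m S := by
  have : Fact (Nat.Prime 2) := ⟨Nat.prime_two⟩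
  by_cases hSb : S = ⊥
  · obtain ⟨P⟩ : Nonempty (Sylow 2 G) := inferInstance
    exact ⟨P, by rw [hSb]; exact bot_le, Or.inl ⟨P, rfl⟩⟩
  have htop : (⊤ : Subgroup ↥S) ≠ ⊥ := by
    intro e
    apply hSb
    rw [Subgroup.eq_bot_iff_forall]
    intro x hx
    have : (⟨x, hx⟩ : S) ∈ (⊥ : Subgroup ↥S) := by rw [← e]; exact Subgroup.mem_top _
    exact congrArg Subtype.val (Subgroup.mem_bot.1 this)
  have := hsolv
  obtain ⟨M, p, hp, hMin, -, -, hMp, hMpg⟩ := CfsgLib.SolvMin.exists_minNormal_pgroup_of_solvable (⊤ : Subgroup ↥S) htop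
  set V := M.map S.subtype with hV
  have hVb : V ≠ ⊥ := by
    intro e
    rw [hV, Subgroup.map_eq_bot_iff_of_injective _ S.subtype_injective] at e
    exact hMin.2.1 e
  have hconj : ∀ s ∈ S, ∀ v ∈ V, s * v * s⁻¹ ∈ V := by
    rintro s hs _ ⟨x, hx, rfl⟩
    exact ⟨_, hMin.1.conj_mem x hx ⟨s, hs⟩, rfl⟩
  have hSV : S ≤ Subgroup.normalizer (V : Set G) := by
    intro s hs
    rw [Subgroup.mem_normalizer_iff]
    intro v
    constructor
    · exact hconj s hs v
    · intro h
      have h1 := hconj s⁻¹ (Subgroup.inv_mem _ hs) _ h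
      have e : s⁻¹ * (s * v * s⁻¹) * s⁻¹⁻¹ = v := by group
      rwa [e] at h1
  by_cases hp2 : p = 2
  · subst hp2
    have hVp : IsPGroup 2 V := hMpg.map _
    by_cases h3 : 3 ≤ Nat.card V
    · exact R.QQ_two hperf hm hVp h3 hSV
    · obtain ⟨t, ht, ht1⟩ := exists_ne_one hVb
      have ht2 : t * t = 1 := (R.two_elt V hVp).1 t ht
      have huniq : ∀ y ∈ V, y ≠ 1 → y = t := by
        intro y hy hy1
        by_contra hyt
        apply h3
        have h1 : ({1, y, t} : Set G) ⊆ (V : Set G) := by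
          rintro y (rfl | rfl | rfl)
          · exact V.one_mem
          · exact hy
          · exact ht
        have h2 : Set.ncard ({1, y, t} : Set G) = 3 := by
          rw [Set.ncard_insert_of_notMem, Set.ncard_pair hyt]
          simp only [Set.mem_insert_iff, Set.mem_singleton_iff, not_or]
          exact ⟨hy1.symm, ht1.symm⟩
        have h4 := Set.ncard_le_ncard h1
        rw [h2] at h4
        exact h4
      obtain ⟨g, hg⟩ := R.inv_conj hperf ht1 ht2
      have hSt : ∀ s ∈ S, s * t = t * s := by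
        intro s hs
        have h5 := huniq _ (hconj s hs t ht) (by
          intro e
          apply ht1
          have : t = s⁻¹ * (s * t * s⁻¹) * s := by group
          rw [this, e]; group)
        exact mul_inv_eq_iff_eq_mul.1 h5
      have hsolv' : Group.IsSolvable ↥(S.map (MulAut.conj g⁻¹).toMonoidHom) :=
        Group.isSolvable_of_surjective (f := (Subgroup.equivMapOfInjective S (MulAut.conj g⁻¹).toMonoidHom (MulAut.conj g⁻¹).injective).toMonoidHom)
          (Subgroup.equivMapOfInjective S (MulAut.conj g⁻¹).toMonoidHom (MulAut.conj g⁻¹).injective).surjective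
      obtain ⟨A, hA, hgood⟩ := R.QQ_Cτ hperf ρ hρ hm hsolv' (by
        rintro _ ⟨s, hs, rfl⟩
        show (g⁻¹ * s * g⁻¹⁻¹) * R.τ = R.τ * (g⁻¹ * s * g⁻¹⁻¹)
        have h5 := hSt s hs
        rw [← hg] at h5
        calc (g⁻¹ * s * g⁻¹⁻¹) * R.τ = g⁻¹ * (s * (g * R.τ * g⁻¹)) * g := by group
          _ = _ := by rw [h5]; group)
      refine ⟨A.map (MulAut.conj g).toMonoidHom, ?_, ?_⟩
      · intro s hs
        rw [norm_conj]
        apply hA
        refine ⟨s, hs, ?_⟩
        show g⁻¹ * s * g⁻¹⁻¹ = g⁻¹ * s * g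
        rw [inv_inv]
      · rcases hgood with ⟨P, hP⟩ | ⟨P, hP⟩ | ⟨hc, hcc⟩
        · left
          apply R.syl2'
          rw [card_map_conj, hP, R.card_syl2 P]
        · right; left
          apply R.syl3
          have h3' : Fact (Nat.Prime 3) := ⟨Nat.prime_three⟩
          obtain ⟨P', hP'⟩ := R.syl3 R.U R.cU
          obtain ⟨k, hk⟩ := MulAction.exists_smul_eq G P P'
          rw [card_map_conj, hP, P.card_eq_multiplicity, ← P'.card_eq_multiplicity, ← hP', R.cU]
        · right; right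
          refine ⟨isCyclic_map_conj _ _ hc, ?_⟩
          rw [card_map_conj]; exact hcc
  · exact R.QQ_odd hperf ρ hρ hm hp hp2 (hMpg.map _) hVb hSV

end CfsgLib.ReeA
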