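import Cfsg.Agent.LibRee8
import Cfsg.Agent.LibRee13
import Cfsg.Agent.LibWt5

set_option autoImplicit false
set_option linter.unusedSectionVars false
set_option linter.unusedVariables false

/-! The small Ree groups: lower bound for the degrees of representations -/

namespace CfsgLib.ReeW

open Module CfsgLib.Wt CfsgLib.WtSp

variable {K : Type*} [Field K] [Fintype K]

/-- the characters of K × K -/
noncomputable def ch (ψ : AddChar K ℂ) (a b : K) : AddChar (K × K) ℂ where
  toFun := fun m => ψ (a * m.1 + b * m.2)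
  map_zero_eq_one' := by simp
  map_add_eq_mul' := by
    intro m n
    rw [← AddChar.map_add_eq_mul]
    congr 1
    simp only [Prod.fst_add, Prod.snd_add]
    ring

theorem ch_apply (ψ : AddChar K ℂ) (a b : K) (m : K × K) : ch ψ a b m = ψ (a * m.1 + b * m.2) := rfl

theorem ch_surj {ψ : AddChar K ℂ} (hψ : ψ ≠ 1) (χ : AddChar (K × K) ℂ) : ∃ a b, χ = ch ψ a b := by
  obtain ⟨a, ha⟩ := psi_surj hψ (χ.compAddMonoidHom (AddMonoidHom.inl K K))
  obtain ⟨b, hb⟩ := psi_surj hψ (χ.compAddMonoidHom (AddMonoidHom.inr K K))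
  refine ⟨a, b, ?_⟩
  ext ⟨u, v⟩
  rw [ch_apply, AddChar.map_add_eq_mul, ← ha, ← hb, AddChar.compAddMonoidHom_apply, AddChar.compAddMonoidHom_apply, ← AddChar.map_add_eq_mul]
  simp

theorem ch_inj {ψ : AddChar K ℂ} (hψ : ψ ≠ 1) {a b a' b' : K} (h : ch ψ a b = ch ψ a' b') : a = a' ∧ b = b' := by
  constructor
  · apply psi_inj hψ
    intro c
    have := DFunLike.congr_fun h (c, 0)
    simpa [ch_apply] using this
  · apply psi_inj hψ
    intro c
    have := DFunLike.congr_fun h (0, c)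
    simpa [ch_apply] using this

variable {G : Type*} [Group G] [Finite G] {V : Type*} [AddCommGroup V] [Module ℂ V] [FiniteDimensional ℂ V]

open Classical in
theorem bound (j : Multiplicative (K × K) →* G) (x : K → G) (h : Kˣ → G) (ps : Kˣ → Kˣ)
    (hx : ∀ t u v, x t * j (Multiplicative.ofAdd (u, v)) * (x t)⁻¹ = j (Multiplicative.ofAdd (u, v + u * t)))
    (hh : ∀ (s : Kˣ) u v, h s * j (Multiplicative.ofAdd (u, v)) * (h s)⁻¹ = j (Multiplicative.ofAdd ((ps s : K) * u, (s : K) * v)))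
    (ρ : Representation ℂ G V) (hne : ρ (j (Multiplicative.ofAdd (0, 1))) ≠ 1) :
    Fintype.card K * (Fintype.card K - 1) ≤ finrank ℂ V ∧
      (finrank ℂ V ≤ Fintype.card K * (Fintype.card K - 1) → ∑ v : K, ρ (j (Multiplicative.ofAdd (0, v))) = 0) := by
  obtain ⟨ψ, hψ⟩ := exists_psi K
  have h1 : ∃ χ : AddChar (K × K) ℂ, wt ρ j χ ≠ ⊥ ∧ χ (0, 1) ≠ 1 := by
    by_contra hcon
    push Not at hcon
    exact hne (apply_eq_of_forall ρ j (0, 1) hcon)
  obtain ⟨χ1, hχ1, hχ1'⟩ := h1
  obtain ⟨a1, b1, rfl⟩ := ch_surj hψ χ1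
  have hb1 : b1 ≠ 0 := by
    rintro rfl
    apply hχ1'
    simp [ch_apply]
  have hall : ∀ a b, b ≠ 0 → wt ρ j (ch ψ a b) ≠ ⊥ := by
    intro a b hb
    let s : Kˣ := Units.mk0 (b / b1) (div_ne_zero hb hb1)
    have hs : (s : K) = b / b1 := rfl
    let α : K × K →+ K × K := AddMonoidHom.mk' (fun m => ((ps s : K) * m.1, (s : K) * m.2)) (by
      rintro ⟨u, v⟩ ⟨u', v'⟩
      simp [mul_add])
    have h2 := wt_comp_ne_bot ρ j (h s) α (by rintro ⟨u, v⟩; exact hh s u v) _ hχ1
    have h3 : (ch ψ a1 b1).compAddMonoidHom α = ch ψ (a1 * ps s) b := by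
      ext ⟨u, v⟩
      rw [AddChar.compAddMonoidHom_apply, ch_apply, ch_apply]
      congr 1
      show a1 * ((ps s : K) * u) + b1 * ((s : K) * v) = a1 * ps s * u + b * v
      rw [hs]
      field_simp
    rw [h3] at h2
    let t : K := (a - a1 * ps s) / b
    let β : K × K →+ K × K := AddMonoidHom.mk' (fun m => (m.1, m.2 + m.1 * t)) (by
      rintro ⟨u, v⟩ ⟨u', v'⟩
      simp only [Prod.mk_add_mk]
      congr 1
      ring)
    have h4 := wt_comp_ne_bot ρ j (x t) β (by rintro ⟨u, v⟩; exact hx t u v) _ h2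
    have h5 : (ch ψ (a1 * ps s) b).compAddMonoidHom β = ch ψ a b := by
      ext ⟨u, v⟩
      rw [AddChar.compAddMonoidHom_apply, ch_apply, ch_apply]
      congr 1
      show a1 * ps s * u + b * (v + u * ((a - a1 * ps s) / b)) = a * u + b * v
      field_simp
      ring
    rwa [h5] at h4
  let S : Finset (AddChar (K × K) ℂ) := (Finset.univ ×ˢ (Finset.univ.erase (0 : K))).image fun p : K × K => ch ψ p.1 p.2
  have hScard : S.card = Fintype.card K * (Fintype.card K - 1) := by
    rw [Finset.card_image_of_injective, Finset.card_product, Finset.card_erase_of_mem (Finset.mem_univ _), Finset.card_univ]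
    rintro ⟨a, b⟩ ⟨a', b'⟩ e
    obtain ⟨e1, e2⟩ := ch_inj hψ e
    exact Prod.ext e1 e2
  have hS : ∀ χ ∈ S, wt ρ j χ ≠ ⊥ := by
    intro χ hχ
    rw [Finset.mem_image] at hχ
    obtain ⟨⟨a, b⟩, hp, rfl⟩ := hχ
    rw [Finset.mem_product, Finset.mem_erase] at hp
    exact hall a b hp.2.1
  refine ⟨by rw [← hScard]; exact card_le ρ j S hS, ?_⟩
  intro hle
  by_contra hcon
  have h6 : ∃ w : V, (∑ v : K, ρ (j (Multiplicative.ofAdd (0, v)))) w ≠ 0 := by
    by_contra h
    push Not at h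
    exact hcon (LinearMap.ext h)
  obtain ⟨w, hw⟩ := h6
  set w' := (∑ v : K, ρ (j (Multiplicative.ofAdd (0, v)))) w with hw'
  have hfix : ∀ v, ρ (j (Multiplicative.ofAdd ((0 : K), v))) w' = w' := by
    intro v
    rw [hw', LinearMap.sum_apply, map_sum]
    refine Fintype.sum_equiv (Equiv.addLeft v) _ _ ?_
    intro v'
    rw [← Module.End.mul_apply, ← map_mul, ← map_mul, ← ofAdd_add]
    simp
  have h7 : ∃ χ : AddChar (K × K) ℂ, pr ρ j χ w' ≠ 0 := by
    by_contra h
    push Not at h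
    apply hw
    rw [← sum_pr ρ j w']
    exact Finset.sum_eq_zero fun χ _ => h χ
  obtain ⟨χ, hχ⟩ := h7
  have hm := pr_mem ρ j χ w'
  have hχS : χ ∉ S := by
    intro hmem
    rw [Finset.mem_image] at hmem
    obtain ⟨⟨a, b⟩, hp, rfl⟩ := hmem
    rw [Finset.mem_product, Finset.mem_erase] at hp
    apply hp.2.1
    apply psi_inj hψ
    intro c
    have h8 := hm (0, c)
    have h9 : ρ (j (Multiplicative.ofAdd ((0 : K), c))) (pr ρ j (ch ψ a b) w') = pr ρ j (ch ψ a b) w' := by
      rw [pr_apply, map_smul, map_sum]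
      congr 1
      refine Finset.sum_congr rfl fun m _ => ?_
      rw [map_smul, ← Module.End.mul_apply, ← map_mul, ← map_mul, ← ofAdd_add, add_comm, ofAdd_add, map_mul, map_mul, Module.End.mul_apply, hfix]
    rw [h9] at h8
    have h10 : (1 : ℂ) • pr ρ j (ch ψ a b) w' = (ch ψ a b) (0, c) • pr ρ j (ch ψ a b) w' := by rw [one_smul]; exact h8
    have h11 := smul_left_injective ℂ hχ h10
    rw [ch_apply] at h11
    simpa using h11.symm
  have h12 : (insert χ S).card ≤ finrank ℂ V := by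
    apply card_le ρ j
    intro χ' hχ'
    rw [Finset.mem_insert] at hχ'
    rcases hχ' with rfl | h
    · intro hbot
      rw [hbot, Submodule.mem_bot] at hm
      exact hχ hm
    · exact hS _ h
  rw [Finset.card_insert_of_notMem hχS, hScard] at h12
  omega

end CfsgLib.ReeW
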