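import Cfsg.Agent.LibReeM
import Cfsg.Agent.LibRee13

set_option autoImplicit false
set_option linter.unusedSectionVars false
set_option linter.unusedVariables false

/-! The small Ree groups: explicit coordinates of the unipotent group -/

namespace CfsgLib.Chev.TwG2

open Cfsg.Lie Matrix CfsgLib.Chev

variable {K : Type*} [Field K] [Fintype K] [CharP K 3]

theorem R8_X6 (a b c d t : K) : R8 a b c d * X 6 t = X 6 t * R8 a b c (d - c * t) := by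
  have h := R8_w a b c d 0 t
  have e : X 7 (0 : K) = 1 := good3_G2.X_zero 7
  rw [e, one_mul] at h
  rw [h]
  congr 2
  ring

section
variable {m : ℕ} {f : K ≃+* K} (hf : ∀ t, f t = t ^ (3 ^ m)) (hK : Fintype.card K = 3 ^ (2 * m + 1))

include hf hK in
theorem uW_mul (t u v t' u' v' : K) : uW f t u v * uW f t' u' v' =
    uW f (t + t') (u + u' - t * f t' ^ 3) (v + v' - u * t' - t ^ 2 * f t' ^ 3 + t * t' * f t' ^ 3) := by
  have h3 : (3 : K) = 0 := by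
    have := hp3 (K := K); push_cast at this; exact this
  have k1 : f (f t' ^ 3) = t' := by rw [map_pow, ff3 hf hK]
  have h1 := R8_w (t * f t + f u) (t * f t ^ 2 + f v) u v (f t') t'
  have h2 := swap76 t (f t')
  have x7 : X 7 (f t) * X 7 (f t') = X 7 (f (t + t')) := by
    unfold X; rw [← good3_G2.X_add, map_add]
  have x6 : X 6 t * X 6 t' = X 6 (t + t') := by
    unfold X; rw [← good3_G2.X_add]
  have h4 := R8_X6 (t * f t') (t * f t' ^ 2) (-(t * f t' ^ 3)) (-(t ^ 2 * f t' ^ 3)) t'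
  calc uW f t u v * uW f t' u' v'
      = X 7 (f t) * X 6 t * (R8 (t * f t + f u) (t * f t ^ 2 + f v) u v * (X 7 (f t') * X 6 t')) * R8 (t' * f t' + f u') (t' * f t' ^ 2 + f v') u' v' := by
        unfold uW; simp only [mul_assoc]
    _ = X 7 (f t) * (X 6 t * X 7 (f t')) * X 6 t' * R8 (t * f t + f u) ((t * f t ^ 2 + f v) - (t * f t + f u) * f t') u (v - u * t') *
        R8 (t' * f t' + f u') (t' * f t' ^ 2 + f v') u' v' := by rw [h1]; simp only [mul_assoc]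
    _ = (X 7 (f t) * X 7 (f t')) * X 6 t * (R8 (t * f t') (t * f t' ^ 2) (-(t * f t' ^ 3)) (-(t ^ 2 * f t' ^ 3)) * X 6 t') *
        (R8 (t * f t + f u) ((t * f t ^ 2 + f v) - (t * f t + f u) * f t') u (v - u * t') * R8 (t' * f t' + f u') (t' * f t' ^ 2 + f v') u' v') := by
        rw [h2]; simp only [mul_assoc]
    _ = (X 7 (f t) * X 7 (f t')) * (X 6 t * X 6 t') * (R8 (t * f t') (t * f t' ^ 2) (-(t * f t' ^ 3)) (-(t ^ 2 * f t' ^ 3) - (-(t * f t' ^ 3)) * t') *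
        (R8 (t * f t + f u) ((t * f t ^ 2 + f v) - (t * f t + f u) * f t') u (v - u * t') * R8 (t' * f t' + f u') (t' * f t' ^ 2 + f v') u' v')) := by
        rw [h4]; simp only [mul_assoc]
    _ = _ := by
      rw [x7, x6, R8_mul, R8_mul]
      unfold uW
      congr 1
      congr 1
      · simp only [map_add, map_sub, map_mul, k1]; ring
      · simp only [map_add, map_sub, map_mul, k1, map_pow, ff3 hf hK]
        linear_combination (-(t * f t * f t') - (t' * f t * f t')) * h3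
      · ring
      · ring

include hf hK in
theorem hG_uW (s : Kˣ) (t u v : K) : hG f s * uW f t u v * (hG f s)⁻¹ = uW f (chi0 f s * t) (psi f s * u) (s * v) := by
  have hh := ((H_iff hf hK).2 ⟨s, rfl⟩ : hG f s ∈ _)
  have h1 : hG f s * uW f t 0 0 * (hG f s)⁻¹ ∈ chevG2.posUnipotent K ⊓ (S f).Fx :=
    ⟨good3_G2.H_norm_U hh.1 (uW_U t 0 0), Subgroup.mul_mem _ (Subgroup.mul_mem _ hh.2 (uW_Fx hf hK t 0 0)) (Subgroup.inv_mem _ hh.2)⟩
  obtain ⟨t1, u1, v1, e1⟩ := U_Fx hf hK h1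
  obtain ⟨q7, q6, p8, p9, p10, p11⟩ := pair_vals
  have e7 : hG f s * X 7 (f t) * (hG f s)⁻¹ = X 7 (f (chi0 f s * t)) := by
    rw [hG_X s (by decide), q7.1, q7.2, map_mul, ← fu_val, fu_chi hf hK]
  have e6 : hG f s * X 6 t * (hG f s)⁻¹ = X 6 (chi0 f s * t) := by
    rw [hG_X s (by decide), q6.1, q6.2]; rfl
  have e8 : hG f s * R8 (t * f t) (t * f t ^ 2) 0 0 * (hG f s)⁻¹ = R8 (((fu f s ^ (-1 : ℤ) * s ^ (1 : ℤ) : Kˣ) : K) * (t * f t)) (((fu f s ^ (1 : ℤ) * s ^ (0 : ℤ) : Kˣ) : K) * (t * f t ^ 2)) 0 0 := by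
    have hz : ∀ r, X r (0 : K) = 1 := fun r => good3_G2.X_zero r
    unfold R8
    rw [hz, hz, mul_one, mul_one, mul_one, mul_one]
    have : hG f s * (X 8 (t * f t) * X 9 (t * f t ^ 2)) * (hG f s)⁻¹ = (hG f s * X 8 (t * f t) * (hG f s)⁻¹) * (hG f s * X 9 (t * f t ^ 2) * (hG f s)⁻¹) := by group
    rw [this, hG_X s (by decide), hG_X s (by decide), p8.1, p8.2, p9.1, p9.2]
  have e2 : hG f s * uW f t 0 0 * (hG f s)⁻¹ = X 7 (f (chi0 f s * t)) * X 6 (chi0 f s * t) *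
      R8 (((fu f s ^ (-1 : ℤ) * s ^ (1 : ℤ) : Kˣ) : K) * (t * f t)) (((fu f s ^ (1 : ℤ) * s ^ (0 : ℤ) : Kˣ) : K) * (t * f t ^ 2)) 0 0 := by
    rw [← e7, ← e6, ← e8]
    unfold uW
    rw [map_zero, add_zero, add_zero]
    group
  -- compare the coordinates
  have e3 : t1 = chi0 f s * t ∧ u1 = 0 ∧ v1 = 0 := by
    rw [e1] at e2
    obtain ⟨y1, hy1, c1⟩ := crd1 (f t1) t1 (R8_Uge (t1 * f t1 + f u1) (t1 * f t1 ^ 2 + f v1) u1 v1)
    obtain ⟨y2, hy2, c2⟩ := crd1 (f (chi0 f s * t)) (chi0 f s * t)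
      (R8_Uge (((fu f s ^ (-1 : ℤ) * s ^ (1 : ℤ) : Kˣ) : K) * (t * f t)) (((fu f s ^ (1 : ℤ) * s ^ (0 : ℤ) : Kˣ) : K) * (t * f t ^ 2)) 0 0)
    have h1 := good3_G2.crd_uniq (i := 1) (by decide) hy1 hy2 (c1.symm.trans (e2.trans c2))
    subst h1
    unfold uW at e2
    obtain ⟨_, _, h3, h4⟩ := R8_inj (mul_left_cancel e2)
    exact ⟨rfl, h3, h4⟩
  obtain ⟨rfl, rfl, rfl⟩ := e3
  have h5 := uW_split (f := f) t u v 0 0
  rw [sub_zero, sub_zero] at h5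
  have h6 := uW_split (f := f) (chi0 f s * t) (psi f s * u) (s * v) 0 0
  rw [sub_zero, sub_zero] at h6
  have h7 : hG f s * uW f 0 u v * (hG f s)⁻¹ = uW f 0 (psi f s * u) (s * v) := by
    rw [uW0, uW0, hG_R8 hf hK]
  rw [h5, h6, ← e1, ← h7]
  group

end
end CfsgLib.Chev.TwG2

namespace CfsgLib.ReeA

open Cfsg.Lie CfsgLib.Chev Matrix CfsgLib.Rank1 CfsgLib.SL2P

/-- a Ree group with explicit coordinates -/
structure RX (G : Type*) [Group G] [Finite G] (K : Type*) [Field K] [Fintype K] (m : ℕ) where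
  R : RG G K m
  f : K ≃+* K
  hf : ∀ t, f t = t ^ (3 ^ m)
  x : K → K → K → G
  x_inj : ∀ t u v t' u' v', x t u v = x t' u' v' → t = t' ∧ u = u' ∧ v = v'
  x_U : ∀ g, g ∈ R.U ↔ ∃ t u v, g = x t u v
  x_mul : ∀ t u v t' u' v', x t u v * x t' u' v' = x (t + t') (u + u' - t * f t' ^ 3) (v + v' - u * t' - t ^ 2 * f t' ^ 3 + t * t' * f t' ^ 3)
  h : Kˣ →* G
  h_inj : Function.Injective h
  h_H : ∀ g, g ∈ R.H ↔ ∃ s, g = h s
  χ : Kˣ →* Kˣ
  ψ : Kˣ →* Kˣ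
  χ_pow : ∀ s, χ s * s ^ (3 ^ (m + 1)) = s ^ 2
  ψ_pow : ∀ s, ψ s * s = s ^ (3 ^ (m + 1))
  h_x : ∀ s t u v, h s * x t u v * (h s)⁻¹ = x (χ s * t) (ψ s * u) (s * v)
  τ_eq : R.τ = h (-1)
  perf : commutator G = ⊤
  simple : IsSimpleGroup G

/-- the main interface with coordinates -/
theorem exists_RX {K : Type*} [Field K] [Fintype K] {m : ℕ} (hm : 1 ≤ m) (hK : Fintype.card K = 3 ^ (2 * m + 1)) :
    ∃ X : RX ↥(twistedG2 K (3 ^ m)) K m,
    X.R.B = (chevG2.borelSubgroup K ⊓ twistedG2 K (3 ^ m)).subgroupOf (twistedG2 K (3 ^ m)) ∧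
    X.R.U = (chevG2.posUnipotent K ⊓ twistedG2 K (3 ^ m)).subgroupOf (twistedG2 K (3 ^ m)) ∧
    X.R.H = (chevG2.diagonalSubgroup K ⊓ twistedG2 K (3 ^ m)).subgroupOf (twistedG2 K (3 ^ m)) ∧
    (∀ t u v, ((X.x t u v : ↥(twistedG2 K (3 ^ m))) : GL chevG2.Idx K) = TwG2.uW X.f t u v) ∧
    (∀ s, ((X.h s : ↥(twistedG2 K (3 ^ m))) : GL chevG2.Idx K) = TwG2.hG X.f s) := by
  have : Fact (Nat.Prime 3) := ⟨Nat.prime_three⟩
  have : CharP K 3 := charP_of_card Nat.prime_three hK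
  obtain ⟨f, hf⟩ := exists_frobp K 3 m
  obtain ⟨R, h1, h2, h3⟩ := TwG2.exists_RG hf hK
  obtain ⟨hs, hc⟩ := TwG2.simple hf hK hm
  let hh : Kˣ →* ↥(twistedG2 K (3 ^ m)) := (TwG2.hGh f).codRestrict _ (fun s => TwG2.hG_mem hf hK s)
  have hhv : ∀ s, ((hh s : ↥(twistedG2 K (3 ^ m))) : GL chevG2.Idx K) = TwG2.hG f s := fun _ => rfl
  have hhi : Function.Injective hh := fun a b e => TwG2.hG_inj (congrArg Subtype.val e)
  have hhH : ∀ g, g ∈ R.H ↔ ∃ s, g = hh s := by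
    intro g
    rw [h3, Subgroup.mem_subgroupOf]
    constructor
    · intro hg
      obtain ⟨s, hs⟩ := (TwG2.H_iff hf hK).1 ⟨hg.1, TwG2.hE hf hK hg.2⟩
      exact ⟨s, Subtype.ext hs⟩
    · rintro ⟨s, rfl⟩
      exact ⟨((TwG2.H_iff hf hK).2 ⟨s, rfl⟩).1, (hh s).2⟩
  refine ⟨{
    R := R
    f := f
    hf := hf
    x := fun t u v => ⟨TwG2.uW f t u v, TwG2.uW_mem hf t u v⟩
    x_inj := fun t u v t' u' v' e => TwG2.uW_inj (congrArg Subtype.val e)
    x_U := ?_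
    x_mul := fun t u v t' u' v' => Subtype.ext (TwG2.uW_mul hf hK t u v t' u' v')
    h := hh
    h_inj := hhi
    h_H := hhH
    χ := ⟨⟨TwG2.chi0 f, by simp [TwG2.chi0]⟩, fun a b => by simp only [TwG2.chi0, map_mul, mul_zpow]; exact mul_mul_mul_comm _ _ _ _⟩
    ψ := ⟨⟨TwG2.psi f, by simp [TwG2.psi]⟩, fun a b => by simp only [TwG2.psi, map_mul, mul_zpow]; exact mul_mul_mul_comm _ _ _ _⟩
    χ_pow := TwG2.chi_pow hf
    ψ_pow := TwG2.psi_pow hf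
    h_x := fun s t u v => Subtype.ext (TwG2.hG_uW hf hK s t u v)
    τ_eq := ?_
    perf := comm_top hs hc
    simple := hs }, h1, h2, h3, fun _ _ _ => rfl, fun _ => rfl⟩
  · intro g
    rw [h2, Subgroup.mem_subgroupOf]
    constructor
    · intro hg
      obtain ⟨t, u, v, e⟩ := TwG2.U_Fx hf hK ⟨hg.1, TwG2.hE hf hK hg.2⟩
      exact ⟨t, u, v, Subtype.ext e⟩
    · rintro ⟨t, u, v, rfl⟩
      exact ⟨TwG2.uW_U t u v, TwG2.uW_mem hf t u v⟩
  · symm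
    apply R.unique_inv
    · exact (hhH _).2 ⟨-1, rfl⟩
    · intro h
      exact TwG2.one_ne_neg (K := K) (hhi (by rw [h, map_one])).symm
    · rw [← map_mul]
      have : (-1 : Kˣ) * -1 = 1 := by simp
      rw [this, map_one]

end CfsgLib.ReeA
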