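import Cfsg.Agent.LibWt5
import Cfsg.Agent.LibComp
import Cfsg.Agent.LibH22Sp5

/-! degrees of representations of symplectic groups: lower bounds (helper26) -/
set_option autoImplicit false
set_option linter.unusedSectionVars false

namespace CfsgLib.WtSp

open Matrix Module CfsgLib.Wt CfsgLib.WtQ

theorem rep_ne_one {G V : Type*} [Group G] [AddCommGroup V] [Module ℂ V] [FiniteDimensional ℂ V]
    (hG : Cfsg.IsQuasisimple G) (ρ : Representation ℂ G V) (hirr : ρ.IsIrreducible) (h2 : 2 ≤ finrank ℂ V) {g : G}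
    (hg : g ∉ Subgroup.center G) : ρ g ≠ 1 := by
  intro h1
  have hN : g ∈ (MonoidHom.ker ρ) := h1
  rcases CfsgLib.Comp.quasisimple_normal hG (MonoidHom.ker ρ) with h | h
  · have htriv : ∀ g, ρ g = 1 := fun g => by
      have : g ∈ MonoidHom.ker ρ := by rw [h]; exact Subgroup.mem_top g
      exact this
    haveI : Nontrivial V := by
      rw [← Module.finrank_pos_iff (R := ℂ)]; omega
    obtain ⟨v, hv⟩ := exists_ne (0 : V)
    let S : Subrepresentation ρ := ⟨Submodule.span ℂ {v}, fun g w hw => by rw [htriv g]; exact hw⟩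
    rcases hirr.eq_bot_or_eq_top S with hS | hS
    · have h3 : v ∈ S := Submodule.mem_span_singleton_self v
      rw [hS] at h3
      exact hv h3
    · have h3 : (Submodule.span ℂ {v} : Submodule ℂ V) = ⊤ := by
        rw [eq_top_iff]
        intro w _
        have : w ∈ S := by rw [hS]; trivial
        exact this
      have h4 : finrank ℂ (Submodule.span ℂ {v} : Submodule ℂ V) = 1 := finrank_span_singleton hv
      rw [h3, finrank_top] at h4
      omega
  · exact hg (h hN)

variable {F : Type*} [Field F] [Fintype F]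

theorem sp_quasi {n : ℕ} (hn : 2 ≤ n) (hex : n = 2 → 3 ≤ Fintype.card F) :
    Cfsg.IsQuasisimple (symplecticGroup (Fin n) F) := by
  refine ⟨⟨Cfsg.Agent.H22.sp_perfect ?_⟩, Cfsg.Agent.H22.psp_simple hn hex⟩
  rcases (show n = 2 ∨ 3 ≤ n by omega) with h1 | h1
  · right; left; exact ⟨h1, hex h1⟩
  · left; exact h1

theorem jS_not_center {n : ℕ} (S : SymG (Fin n) F) (hS : S ≠ 0) :
    jS (Fin n) F (Multiplicative.ofAdd S) ∉ Subgroup.center (symplecticGroup (Fin n) F) := by
  intro h
  obtain ⟨a, ha⟩ := Cfsg.Agent.H22.center_sp_scalar h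
  rw [jS_val] at ha
  apply hS
  apply Subtype.ext
  ext i j
  have := congrFun (congrFun ha (Sum.inl i)) (Sum.inr j)
  simpa using this

theorem sp_even {n : ℕ} (hn : 2 ≤ n) (heven : Even (Fintype.card F)) (hex : (n, Fintype.card F) ≠ (2, 2))
    {V : Type*} [AddCommGroup V] [Module ℂ V] [FiniteDimensional ℂ V]
    (ρ : Representation ℂ (symplecticGroup (Fin n) F) V) (hirr : ρ.IsIrreducible) (h2 : 2 ≤ finrank ℂ V) :
    (Fintype.card F ^ n - 1) * (Fintype.card F ^ n - Fintype.card F) ≤ 2 * (Fintype.card F + 1) * finrank ℂ V := by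
  classical
  have h1 : 1 < Fintype.card F := Fintype.one_lt_card
  have hq : Cfsg.IsQuasisimple (symplecticGroup (Fin n) F) := sp_quasi hn (fun h => by
    have h3 : Fintype.card F ≠ 2 := fun h' => hex (by rw [h, h'])
    omega)
  have hc : (2 : F) = 0 := by
    have h3 := (FiniteField.even_card_iff_char_two (F := F)).mpr (Nat.even_iff.mp heven)
    have h4 := ringChar.spec F 2
    rw [h3] at h4
    exact_mod_cast h4.mpr dvd_rfl
  obtain ⟨X, hX, hQ, hcard, -, -, hpol⟩ := weights ρ
  have hne : ∃ f ∈ X, ∃ x y, pol f x y ≠ 0 := by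
    by_contra hcon
    push Not at hcon
    let i : Fin n := ⟨0, by omega⟩
    let j : Fin n := ⟨1, by omega⟩
    have hij : i ≠ j := by
      intro h
      have := congrArg Fin.val h
      simp [i, j] at this
    have h3 := hpol hcon (Pi.single i 1) (Pi.single j 1) 1
    refine rep_ne_one hq ρ hirr h2 (jS_not_center _ ?_) h3
    intro h4
    have h5 := congrFun (congrFun (congrArg Subtype.val h4) i) j
    simp [rk2, vecMulVec_apply, hij] at h5
  have h3 := count_even hc (by simpa using hn) hX hQ hne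
  rw [Fintype.card_fin] at h3
  exact h3.trans (Nat.mul_le_mul_left _ ((Finset.card_filter_le _ _).trans hcard))

theorem sp_odd {n : ℕ} (hn : 2 ≤ n) (hodd : Odd (Fintype.card F))
    {V : Type*} [AddCommGroup V] [Module ℂ V] [FiniteDimensional ℂ V]
    (ρ : Representation ℂ (symplecticGroup (Fin n) F) V) (hirr : ρ.IsIrreducible) (h2 : 2 ≤ finrank ℂ V) :
    Fintype.card F ^ n - 1 ≤ 2 * finrank ℂ V := by
  classical
  have h1 : 1 < Fintype.card F := Fintype.one_lt_card
  have hq : Cfsg.IsQuasisimple (symplecticGroup (Fin n) F) := sp_quasi hn (fun h => by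
    rcases hodd with ⟨k, hk⟩
    omega)
  have hc : (2 : F) ≠ 0 := by
    intro h3
    have h5 : ringChar F = 2 := CharP.ringChar_of_prime_eq_zero Nat.prime_two (by exact_mod_cast h3)
    have h6 := FiniteField.even_card_of_char_two h5
    rcases hodd with ⟨k, hk⟩
    omega
  obtain ⟨X, hX, hQ, hcard, -, hz, -⟩ := weights ρ
  have hne : ∃ f ∈ X, ∃ x, f x ≠ 0 := by
    by_contra hcon
    push Not at hcon
    let i : Fin n := ⟨0, by omega⟩
    have h3 := hz hcon (Pi.single i 1) 1
    refine rep_ne_one hq ρ hirr h2 (jS_not_center _ ?_) h3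
    intro h4
    have h5 := congrFun (congrFun (congrArg Subtype.val h4) i) i
    simp [rk1, vecMulVec_apply] at h5
  have h3 := count_odd hc (by simp; omega) hX hQ hne
  rw [Fintype.card_fin] at h3
  exact h3.trans (Nat.mul_le_mul_left _ ((Finset.card_filter_le _ _).trans hcard))

end CfsgLib.WtSp
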