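import Cfsg.Agent.LibRee29
import Cfsg.Agent.LibRee30
import Cfsg.Agent.LibWt6

set_option autoImplicit false
set_option linter.unusedSectionVars false
set_option linter.unusedVariables false

/-! The small Ree groups: the minimal degree of a nontrivial representation -/

namespace CfsgLib.ReeA

open Cfsg.Lie CfsgLib.Chev Matrix CfsgLib.Rank1 CfsgLib.SL2P Module CfsgLib.ReeW

variable {G : Type*} [Group G] [Finite G] {K : Type*} [Field K] [Fintype K] {m : ℕ} (X : RX G K m)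

theorem RX.x_one : X.x 0 0 0 = 1 := by
  have h := X.x_mul 0 0 0 0 0 0
  simp only [mul_zero, zero_mul, add_zero, sub_zero, zero_pow two_ne_zero] at h
  exact mul_eq_left.1 h

theorem RX.x_eq_one {t u v : K} : X.x t u v = 1 ↔ t = 0 ∧ u = 0 ∧ v = 0 := by
  constructor
  · intro h; rw [← X.x_one] at h; exact X.x_inj _ _ _ _ _ _ h
  · rintro ⟨rfl, rfl, rfl⟩; exact X.x_one

theorem RX.x0_mul (u v u' v' : K) : X.x 0 u v * X.x 0 u' v' = X.x 0 (u + u') (v + v') := by
  rw [X.x_mul]; congr 1 <;> simp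

/-- the abelian subgroup of order q² -/
noncomputable def RX.j : Multiplicative (K × K) →* G := MonoidHom.mk' (fun m => X.x 0 m.toAdd.1 m.toAdd.2) (by
  intro a b
  rw [X.x0_mul]
  rfl)

theorem RX.j_apply (u v : K) : X.j (Multiplicative.ofAdd (u, v)) = X.x 0 u v := rfl

theorem RX.x_conj0 (t u v u' v' : K) : X.x t u' v' * X.x 0 u v * (X.x t u' v')⁻¹ = X.x 0 u (v + u * t) := by
  rw [mul_inv_eq_iff_eq_mul, X.x_mul, X.x_mul]
  congr 1
  · ring
  · simp; ring
  · simp; ring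

include X in
theorem RX.three : (3 : K) = 0 := X.R.three

theorem RX.h_conj0 (s : Kˣ) (u v : K) : X.h s * X.x 0 u v * (X.h s)⁻¹ = X.x 0 (X.ψ s * u) (s * v) := by
  rw [X.h_x, mul_zero]

theorem RX.ψ_neg_one : X.ψ (-1) = 1 := by
  have h := X.ψ_pow (-1)
  have hodd : Odd (3 ^ (m + 1)) := Odd.pow (by decide)
  rw [hodd.neg_one_pow] at h
  exact mul_eq_right.1 h

theorem RX.τ_conj (v : K) : X.R.τ * X.x 0 0 v = X.x 0 0 v * X.R.τ * (X.x 0 0 v)⁻¹ := by
  have h1 : X.R.τ * X.x 0 0 v * X.R.τ⁻¹ = X.x 0 0 (-v) := by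
    rw [X.τ_eq, X.h_conj0, X.ψ_neg_one]
    congr 1
    · simp
    · simp
  have h2 : (X.x 0 0 v)⁻¹ = X.x 0 0 (-v) := by
    rw [inv_eq_iff_mul_eq_one, X.x0_mul, ← X.x_one]; congr 1 <;> simp
  have h3 : X.x 0 0 (-v) * X.x 0 0 (-v) = X.x 0 0 v := by
    rw [X.x0_mul]
    congr 1
    · simp
    · have := X.three
      linear_combination (-v) * this
  have h4 : X.R.τ * (X.x 0 0 v)⁻¹ = X.x 0 0 v * X.R.τ := by
    rw [← mul_inv_eq_iff_eq_mul, h2]
    have := X.τ_eq
    rw [this, X.h_conj0, X.ψ_neg_one]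
    congr 1
    · simp
    · simp
  calc X.R.τ * X.x 0 0 v = X.R.τ * ((X.x 0 0 v)⁻¹ * (X.x 0 0 v)⁻¹) := by rw [h2, h3]
    _ = (X.R.τ * (X.x 0 0 v)⁻¹) * (X.x 0 0 v)⁻¹ := by group
    _ = _ := by rw [h4]

include X in
theorem RX.center_bot : Subgroup.center G = ⊥ := by
  have := X.simple
  rcases X.simple.eq_bot_or_eq_top_of_normal (Subgroup.center G) inferInstance with h | h
  · exact h
  · exfalso
    have h1 : commutator G = ⊥ := by
      rw [commutator_def, Subgroup.commutator_eq_bot_iff_le_centralizer]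
      intro g _
      rw [Subgroup.mem_centralizer_iff]
      intro y _
      have : y ∈ Subgroup.center G := by rw [h]; exact Subgroup.mem_top _
      exact (Subgroup.mem_center_iff.1 this g).symm
    rw [X.perf] at h1
    have h2 : X.R.τ ∈ (⊤ : Subgroup G) := Subgroup.mem_top _
    rw [h1, Subgroup.mem_bot] at h2
    exact X.R.τ1 h2

include X in
theorem RX.quasi : Cfsg.IsQuasisimple G := by
  refine ⟨⟨X.perf⟩, ?_⟩
  have := X.simple
  exact ((QuotientGroup.quotientMulEquivOfEq X.center_bot).trans QuotientGroup.quotientBot).isSimpleGroup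

theorem RX.not_center : X.x 0 0 1 ∉ Subgroup.center G := by
  rw [X.center_bot, Subgroup.mem_bot, X.x_eq_one]
  rintro ⟨_, _, h⟩
  exact one_ne_zero h

section
variable {V : Type*} [AddCommGroup V] [Module ℂ V] [FiniteDimensional ℂ V]

theorem trace_conj31 (ρ : Representation ℂ G V) (g x : G) : LinearMap.trace ℂ V (ρ (g * x * g⁻¹)) = LinearMap.trace ℂ V (ρ x) := by
  rw [map_mul, LinearMap.trace_mul_comm, ← map_mul]
  congr 2
  group

open Classical in
/-- the degree of a faithful representation -/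
theorem RX.degree (ρ : Representation ℂ G V) (hne : ρ (X.x 0 0 1) ≠ 1) :
    (3 ^ (2 * m + 1)) ^ 2 - 3 ^ (2 * m + 1) + 1 ≤ finrank ℂ V := by
  obtain ⟨h1, h2⟩ := bound X.j (fun t => X.x t 0 0) X.h X.ψ (fun t u v => X.x_conj0 t u v 0 0) (fun s u v => X.h_conj0 s u v) ρ hne
  rw [X.R.hK] at h1 h2
  have hmod := hmod8 m
  have hq1 : 1 ≤ 3 ^ (2 * m + 1) := Nat.one_le_pow _ _ (by norm_num)
  have hqq : (3 ^ (2 * m + 1)) ^ 2 - 3 ^ (2 * m + 1) = 3 ^ (2 * m + 1) * (3 ^ (2 * m + 1) - 1) := by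
    rw [Nat.mul_sub, mul_one, pow_two]
  rw [hqq]
  generalize 3 ^ (2 * m + 1) = q at *
  by_contra hcon
  have hk : finrank ℂ V = q * (q - 1) := by omega
  have h3 := h2 (by omega)
  have hτ : LinearMap.trace ℂ V (ρ X.R.τ) = 0 := by
    have h4 : LinearMap.trace ℂ V (ρ X.R.τ * ∑ v : K, ρ (X.j (Multiplicative.ofAdd (0, v)))) = 0 := by
      rw [h3, mul_zero, map_zero]
    rw [Finset.mul_sum, map_sum] at h4
    have h5 : ∀ v : K, LinearMap.trace ℂ V (ρ X.R.τ * ρ (X.j (Multiplicative.ofAdd (0, v)))) = LinearMap.trace ℂ V (ρ X.R.τ) := by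
      intro v
      rw [← map_mul, X.j_apply, X.τ_conj, trace_conj31]
    rw [Finset.sum_congr rfl fun v _ => h5 v, Finset.sum_const, nsmul_eq_mul] at h4
    rcases mul_eq_zero.1 h4 with h | h
    · exfalso
      rw [Nat.cast_eq_zero, Finset.card_univ] at h
      exact Fintype.card_ne_zero h
    · exact h
  have hinv : ∀ g : G, g ≠ 1 → g * g = 1 → LinearMap.trace ℂ V (ρ g) = 0 := by
    intro g hg1 hg2
    obtain ⟨a, ha⟩ := X.R.inv_conj X.perf hg1 hg2
    rw [← ha, trace_conj31, hτ]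
  have hnτ : X.R.τ * X.R.n = X.R.n * X.R.τ := by
    have h5 := X.R.ninv X.R.τ X.R.τH
    rw [← X.R.hw]
    exact X.R.τcen _
  have hττ := X.R.τ2
  have hnn := X.R.n2
  have hτn : X.R.τ * X.R.n ≠ 1 := by
    intro h
    have : X.R.n = X.R.τ := by
      have : X.R.n = X.R.τ * (X.R.τ * X.R.n) := by rw [← mul_assoc, hττ, one_mul]
      rw [this, h, mul_one]
    exact X.R.S.nB (by rw [this]; exact X.R.S.HB X.R.τH)
  have t1 := hinv _ X.R.τ1 hττ
  have t2 := hinv _ X.R.n1 hnn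
  have t3 := hinv _ hτn (by
    calc X.R.τ * X.R.n * (X.R.τ * X.R.n) = X.R.τ * (X.R.n * X.R.τ) * X.R.n := by group
      _ = (X.R.τ * X.R.τ) * (X.R.n * X.R.n) := by rw [← hnτ]; group
      _ = 1 := by rw [hττ, hnn, one_mul])
  set A := ρ X.R.τ with hA
  set B := ρ X.R.n with hB
  have hAA : A * A = 1 := by rw [hA, ← map_mul, hττ, map_one]
  have hBB : B * B = 1 := by rw [hB, ← map_mul, hnn, map_one]
  have hAB : A * B = B * A := by rw [hA, hB, ← map_mul, ← map_mul, hnτ]
  have t3' : LinearMap.trace ℂ V (A * B) = 0 := by rw [hA, hB, ← map_mul]; exact t3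
  let E : V →ₗ[ℂ] V := (4⁻¹ : ℂ) • (1 + A + B + A * B)
  have hE : IsIdempotentElem E := by
    show E * E = E
    have e1 : (1 + A + B + A * B) * (1 + A + B + A * B) = (4 : ℂ) • (1 + A + B + A * B) := by
      have b1 : A * (A * B) = B := by rw [← mul_assoc, hAA, one_mul]
      have b2 : B * (A * B) = A := by rw [hAB, ← mul_assoc, hBB, one_mul]
      have b3 : A * B * A = B := by rw [hAB, mul_assoc, hAA, mul_one]
      have b4 : A * B * B = A := by rw [mul_assoc, hBB, mul_one]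
      have b5 : A * B * (A * B) = 1 := by rw [← mul_assoc, b3, hBB]
      have b6 : B * A = A * B := hAB.symm
      have four : (4 : ℂ) • (1 + A + B + A * B) = (1 + A + B + A * B) + (1 + A + B + A * B) + (1 + A + B + A * B) + (1 + A + B + A * B) := by
        have : (4 : ℂ) = 1 + 1 + 1 + 1 := by norm_num
        rw [this, add_smul, add_smul, add_smul, one_smul]
      rw [four]
      simp only [mul_add, add_mul, mul_one, one_mul, hAA, hBB, b1, b2, b3, b4, b5, b6]
      abel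
    show ((4⁻¹ : ℂ) • (1 + A + B + A * B)) * ((4⁻¹ : ℂ) • (1 + A + B + A * B)) = (4⁻¹ : ℂ) • (1 + A + B + A * B)
    rw [smul_mul_smul_comm, e1, smul_smul]
    congr 1
    norm_num
  have hP := LinearMap.IsIdempotentElem.isProj_range E hE
  have h6 := LinearMap.IsProj.trace hP
  have h7 : LinearMap.trace ℂ V E = (4⁻¹ : ℂ) * (finrank ℂ V : ℂ) := by
    show LinearMap.trace ℂ V ((4⁻¹ : ℂ) • (1 + A + B + A * B)) = _
    rw [map_smul, map_add, map_add, map_add, t1, t2, t3', add_zero, add_zero, add_zero, LinearMap.trace_one, smul_eq_mul]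
  rw [h7] at h6
  have h8 : (finrank ℂ V : ℂ) = ((4 * finrank ℂ ↥(LinearMap.range E) : ℕ) : ℂ) := by
    push_cast
    rw [← h6]; ring
  have h9 : finrank ℂ V = 4 * finrank ℂ ↥(LinearMap.range E) := Nat.cast_injective h8
  rw [hk] at h9
  obtain ⟨c, hc⟩ : ∃ c, q = 8 * c + 3 := ⟨q / 8, by omega⟩
  have h10 : q * (q - 1) = 4 * (16 * c * c + 10 * c + 1) + 2 := by
    have : q - 1 = 8 * c + 2 := by omega
    rw [this, hc]; ring
  omega

end
end CfsgLib.ReeA
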