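import Cfsg.Agent.EqBase
import Cfsg.Agent.LibH22SL

set_option autoImplicit false

namespace CfsgLib.Reg1

open Matrix
open scoped commutatorElement

variable {ι : Type*} [Fintype ι] [DecidableEq ι] {F : Type*} [Field F]

/-- the transvection `1 + v ⊗ φ` lies in `H` -/
def R (H : Subgroup (Matrix.SpecialLinearGroup ι F)) (v φ : ι → F) : Prop :=
  φ ⬝ᵥ v = 0 ∧ ∃ h ∈ H, ((h : Matrix.SpecialLinearGroup ι F) : Matrix ι ι F) = 1 + vecMulVec v φ

variable {H : Subgroup (Matrix.SpecialLinearGroup ι F)} {v w φ ψ : ι → F}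

theorem coe_mul' (a b : Matrix.SpecialLinearGroup ι F) :
    ((a * b : Matrix.SpecialLinearGroup ι F) : Matrix ι ι F) = (a : Matrix ι ι F) * (b : Matrix ι ι F) := rfl

theorem inv_mul' (a : Matrix.SpecialLinearGroup ι F) :
    ((a⁻¹ : Matrix.SpecialLinearGroup ι F) : Matrix ι ι F) * (a : Matrix ι ι F) = 1 := by
  rw [← coe_mul', inv_mul_cancel]; rfl

theorem mul_inv' (a : Matrix.SpecialLinearGroup ι F) :
    (a : Matrix ι ι F) * ((a⁻¹ : Matrix.SpecialLinearGroup ι F) : Matrix ι ι F) = 1 := by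
  rw [← coe_mul', mul_inv_cancel]; rfl

theorem R.zero_right : R H v 0 := by
  refine ⟨by simp, 1, one_mem _, by simp⟩

theorem R.add (h1 : R H v φ) (h2 : R H v ψ) : R H v (φ + ψ) := by
  obtain ⟨d1, a, ha, ea⟩ := h1
  obtain ⟨d2, b, hb, eb⟩ := h2
  refine ⟨by rw [add_dotProduct, d1, d2, add_zero], a * b, mul_mem ha hb, ?_⟩
  rw [coe_mul', ea, eb, add_mul, mul_add, mul_add, one_mul, one_mul, mul_one, vecMulVec_mul_vecMulVec, d1,
    zero_smul, vecMulVec_zero, add_zero, vecMulVec_add]
  abel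

theorem R.add_left (h1 : R H v φ) (h2 : R H w φ) : R H (v + w) φ := by
  obtain ⟨d1, a, ha, ea⟩ := h1
  obtain ⟨d2, b, hb, eb⟩ := h2
  refine ⟨by rw [dotProduct_add, d1, d2, add_zero], a * b, mul_mem ha hb, ?_⟩
  rw [coe_mul', ea, eb, add_mul, mul_add, mul_add, one_mul, one_mul, mul_one, vecMulVec_mul_vecMulVec, d2,
    zero_smul, vecMulVec_zero, add_zero, add_vecMulVec]
  abel

theorem R.neg (h1 : R H v φ) : R H v (-φ) := by
  obtain ⟨d1, a, ha, ea⟩ := h1
  refine ⟨by rw [neg_dotProduct, d1, neg_zero], a⁻¹, inv_mem ha, ?_⟩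
  have h : (a : Matrix ι ι F) * (1 + vecMulVec v (-φ)) = 1 := by
    rw [ea, add_mul, mul_add, mul_add, one_mul, one_mul, mul_one, vecMulVec_mul_vecMulVec, d1,
      zero_smul, vecMulVec_zero, add_zero, vecMulVec_neg]
    abel
  calc ((a⁻¹ : Matrix.SpecialLinearGroup ι F) : Matrix ι ι F) =
      ((a⁻¹ : Matrix.SpecialLinearGroup ι F) : Matrix ι ι F) * ((a : Matrix ι ι F) * (1 + vecMulVec v (-φ))) := by
        rw [h, mul_one]
    _ = _ := by rw [← mul_assoc, inv_mul', one_mul]

/-- the functionals with a fixed centre form an additive subgroup -/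
def RA (H : Subgroup (Matrix.SpecialLinearGroup ι F)) (v : ι → F) : AddSubgroup (ι → F) where
  carrier := {φ | R H v φ}
  add_mem' := R.add
  zero_mem' := R.zero_right
  neg_mem' := R.neg

theorem R.sub (h1 : R H v φ) (h2 : R H v ψ) : R H v (φ - ψ) := (RA H v).sub_mem h1 h2

theorem R.int_smul (h1 : R H v φ) (k : ℤ) : R H v ((k : F) • φ) := by
  have := (RA H v).zsmul_mem h1 k
  have e : (k : F) • φ = k • φ := by
    ext i; simp
  rw [e]; exact this

theorem R.smul_left {c : F} (h : R H (c • v) φ) : R H v (c • φ) := by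
  obtain ⟨d1, a, ha, ea⟩ := h
  refine ⟨by rw [smul_dotProduct]; rw [dotProduct_smul] at d1; exact d1, a, ha, ?_⟩
  rw [ea, vecMulVec_smul, smul_vecMulVec]

theorem R.smul_right {c : F} (hc : c ≠ 0) (h : R H v (c • φ)) : R H (c • v) φ := by
  obtain ⟨d1, a, ha, ea⟩ := h
  refine ⟨by rw [dotProduct_smul]; rw [smul_dotProduct] at d1; exact d1, a, ha, ?_⟩
  rw [ea, vecMulVec_smul, smul_vecMulVec]

/-- conjugation: `g (1 + v ⊗ ψ g) g⁻¹ = 1 + g v ⊗ ψ`. -/
theorem R.conj {g : Matrix.SpecialLinearGroup ι F} (hg : g ∈ H) (h : R H v φ) (hψ : ψ ᵥ* (g : Matrix ι ι F) = φ) :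
    R H ((g : Matrix ι ι F) *ᵥ v) ψ := by
  obtain ⟨d1, a, ha, ea⟩ := h
  refine ⟨?_, g * a * g⁻¹, mul_mem (mul_mem hg ha) (inv_mem hg), ?_⟩
  · rw [dotProduct_mulVec, hψ, d1]
  · rw [coe_mul', coe_mul', ea, mul_add, add_mul, mul_one, mul_inv', mul_vecMulVec, vecMulVec_mul, ← hψ,
      vecMul_vecMul, mul_inv', vecMul_one]

theorem R.conj' {g : Matrix.SpecialLinearGroup ι F} (hg : g ∈ H) (h : R H ((g : Matrix ι ι F) *ᵥ v) ψ) :
    R H v (ψ ᵥ* (g : Matrix ι ι F)) := by
  have h1 := R.conj (g := g⁻¹) (ψ := ψ ᵥ* (g : Matrix ι ι F)) (inv_mem hg) h (by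
    rw [vecMul_vecMul, mul_inv', vecMul_one])
  rwa [mulVec_mulVec, inv_mul', one_mulVec] at h1

/-- commutators -/
theorem R.comm (h1 : R H v φ) (h2 : R H w ψ) (hφ : φ ⬝ᵥ w = 0) {c : F} (hc : ψ ⬝ᵥ v = c) :
    R H w (c • φ) := by
  obtain ⟨d1, a, ha, ea⟩ := h1
  have h3 : R H ((a : Matrix ι ι F) *ᵥ w) (ψ - c • φ) := by
    apply R.conj ha h2
    rw [ea, sub_vecMul, vecMul_add, vecMul_add, vecMul_one, vecMul_one, smul_vecMul, vecMul_vecMulVec,
      vecMul_vecMulVec, hc, d1]
    simp
  have h4 : (a : Matrix ι ι F) *ᵥ w = w := by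
    rw [ea, add_mulVec, one_mulVec, vecMulVec_mulVec, hφ]
    simp
  rw [h4] at h3
  have h5 := h2.sub h3
  have e : ψ - (ψ - c • φ) = c • φ := by abel
  rwa [e] at h5

/-- integers which are nonzero in a finite field are invertible integers -/
theorem int_inv {F : Type*} [Field F] [Fintype F] (m : ℤ) (hm : (m : F) ≠ 0) : ∃ k : ℤ, (k : F) * (m : F) = 1 := by
  refine ⟨m ^ (Fintype.card F - 2), ?_⟩
  have h1 : 1 < Fintype.card F := Fintype.one_lt_card
  have h2 := FiniteField.pow_card_sub_one_eq_one (m : F) hm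
  push_cast
  rw [← pow_succ]
  have : Fintype.card F - 2 + 1 = Fintype.card F - 1 := by omega
  rw [this, h2]

theorem R.of_int_smul {F : Type*} [Field F] [Fintype F] {H : Subgroup (Matrix.SpecialLinearGroup ι F)} {v φ : ι → F}
    {m : ℤ} (hm : (m : F) ≠ 0) (h : R H v ((m : F) • φ)) : R H v φ := by
  obtain ⟨k, hk⟩ := int_inv m hm
  have := h.int_smul k
  rwa [smul_smul, hk, one_smul] at this

/-! ### the standard basis indexed by natural numbers -/

variable {n : ℕ}

/-- `ee i` is the `i`-th basis vector (zero if `n ≤ i`). -/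
def ee (n : ℕ) (F : Type*) [Field F] (i : ℕ) : Fin n → F := fun k => if k.val = i then 1 else 0

theorem ee_dot (i j : ℕ) : ee n F i ⬝ᵥ ee n F j = if i = j ∧ i < n then 1 else 0 := by
  unfold ee dotProduct
  by_cases hi : i < n
  · rw [Finset.sum_eq_single (⟨i, hi⟩ : Fin n)]
    · simp only [if_true, one_mul]
      by_cases h : i = j
      · simp [h]; omega
      · simp [h]
    · intro b _ hb
      have : b.val ≠ i := fun h => hb (Fin.ext h)
      simp [this]
    · intro h; exact absurd (Finset.mem_univ _) h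
  · have : ∀ k : Fin n, k.val ≠ i := fun k h => hi (h ▸ k.2)
    simp [this, hi]

theorem ee_dot_self {i : ℕ} (hi : i < n) : ee n F i ⬝ᵥ ee n F i = 1 := by
  rw [ee_dot]; simp [hi]

theorem ee_dot_ne {i j : ℕ} (h : i ≠ j) : ee n F i ⬝ᵥ ee n F j = 0 := by
  rw [ee_dot]; simp [h]

/-- Structure of the companion shift -/
structure Shift (H : Subgroup (Matrix.SpecialLinearGroup (Fin n) F)) (C : Matrix.SpecialLinearGroup (Fin n) F) : Prop where
  mem : C ∈ H
  apply : ∀ j, j + 1 < n → (C : Matrix (Fin n) (Fin n) F) *ᵥ ee n F j = ee n F (j + 1)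
  row : ∀ i, i + 1 < n → ∃ ν : ℤ, (ee n F (i + 1) + (ν : F) • ee n F 0) ᵥ* (C : Matrix (Fin n) (Fin n) F) = ee n F i
  row_zero : ∃ s : ℤ, s * s = 1 ∧ ee n F 0 ᵥ* (C : Matrix (Fin n) (Fin n) F) = (s : F) • ee n F (n - 1)

section shift

variable {H : Subgroup (Matrix.SpecialLinearGroup (Fin n) F)} {C : Matrix.SpecialLinearGroup (Fin n) F}

/-- the shift step -/
theorem Shift.step (hC : Shift H C) {i j : ℕ} (hi : i + 1 < n) (hj : j + 1 < n) (h : R H (ee n F i) (ee n F j)) :
    ∃ ν : ℤ, R H (ee n F (i + 1)) (ee n F (j + 1) + (ν : F) • ee n F 0) := by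
  obtain ⟨ν, hν⟩ := hC.row j hj
  refine ⟨ν, ?_⟩
  have := h.conj hC.mem hν
  rwa [hC.apply i hi] at this

theorem Shift.step_last (hC : Shift H C) {i : ℕ} (hi : i + 1 < n) (h : R H (ee n F i) (ee n F (n - 1))) :
    R H (ee n F (i + 1)) (ee n F 0) := by
  obtain ⟨s, hs, hs2⟩ := hC.row_zero
  have hs' : (s : F) * s = 1 := by exact_mod_cast congrArg (Int.cast : ℤ → F) hs
  have h1 : ((s : F) • ee n F 0) ᵥ* (C : Matrix (Fin n) (Fin n) F) = ee n F (n - 1) := by
    rw [smul_vecMul, hs2, smul_smul, hs', one_smul]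
  have h2 := h.conj hC.mem h1
  rw [hC.apply i hi] at h2
  have h3 := h2.int_smul s
  rwa [smul_smul, hs', one_smul] at h3

theorem Shift.back_zero (hC : Shift H C) {i : ℕ} (hi : i + 1 < n) (h : R H (ee n F (i + 1)) (ee n F 0)) :
    R H (ee n F i) (ee n F (n - 1)) := by
  obtain ⟨s, hs, hs2⟩ := hC.row_zero
  have hs' : (s : F) * s = 1 := by exact_mod_cast congrArg (Int.cast : ℤ → F) hs
  rw [← hC.apply i hi] at h
  have h2 := h.conj' hC.mem
  rw [hs2] at h2
  have h3 := h2.int_smul s
  rwa [smul_smul, hs', one_smul] at h3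

/-- multiplication of root elements -/
theorem R.mul_ee {i k j : ℕ} (hk : k < n) (hij : i ≠ j) (c d : F)
    (h1 : R H (ee n F i) (c • ee n F k)) (h2 : R H (ee n F k) (d • ee n F j)) :
    R H (ee n F i) ((c * d) • ee n F j) := by
  have := R.comm h2 h1 (by rw [smul_dotProduct, ee_dot_ne hij.symm, smul_zero]) (c := c) (by
    rw [smul_dotProduct, ee_dot_self hk]; simp)
  rwa [smul_smul] at this

theorem R.mul_ee' {i k j : ℕ} (hk : k < n) (hij : i ≠ j)
    (h1 : R H (ee n F i) (ee n F k)) (h2 : R H (ee n F k) (ee n F j)) :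
    R H (ee n F i) (ee n F j) := by
  have := R.mul_ee hk hij (1 : F) (1 : F) (by rwa [one_smul]) (by rwa [one_smul])
  rwa [mul_one, one_smul] at this

/-- Lemma L0 -/
theorem Shift.all (hC : Shift H C) (hn : 2 ≤ n) (h0 : R H (ee n F 0) (ee n F (n - 1))) :
    ∀ i j, i < n → j < n → i ≠ j → R H (ee n F i) (ee n F j) := by
  have h1 : R H (ee n F 1) (ee n F 0) := hC.step_last (by omega) h0
  have low : ∀ i, 1 ≤ i → i < n → ∀ j, j < i → R H (ee n F i) (ee n F j) := by
    intro i hi
    induction i, hi using Nat.le_induction with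
    | base =>
      intro _ j hj
      have : j = 0 := by omega
      rw [this]; exact h1
    | succ i hi ih =>
      intro hin j hj
      have ih' := ih (by omega)
      have h2 := ih' (i - 1) (by omega)
      obtain ⟨ν, h3⟩ := hC.step hin (by omega) h2
      rw [Nat.sub_add_cancel hi] at h3
      have h4 := ih' 0 (by omega)
      have h5 : R H (ee n F (i + 1)) (ee n F 0) := by
        have := R.comm h4 h3 (ee_dot_ne (by omega)) (c := 1) (by
          rw [add_dotProduct, smul_dotProduct, ee_dot_self (by omega), ee_dot_ne (by omega : (0 : ℕ) ≠ i)]; simp)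
        rwa [one_smul] at this
      have h6 : R H (ee n F (i + 1)) (ee n F i) := by
        have := h3.sub (h5.int_smul ν)
        rwa [add_sub_cancel_right] at this
      by_cases hji : j = i
      · rw [hji]; exact h6
      · exact R.mul_ee' (k := i) (by omega) (by omega) h6 (ih' j (by omega))
  have last : ∀ i, i < n - 1 → R H (ee n F i) (ee n F (n - 1)) := by
    intro i hi
    by_cases h : i = 0
    · rw [h]; exact h0
    · exact R.mul_ee' (k := 0) (by omega) (by omega) (low i (by omega) (by omega) 0 (by omega)) h0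
  intro i j hi hj hij
  rcases lt_or_gt_of_ne hij with h | h
  · by_cases hj' : j = n - 1
    · rw [hj']; exact last i (by omega)
    · exact R.mul_ee' (k := n - 1) (by omega) hij (last i (by omega)) (low (n - 1) (by omega) (by omega) j (by omega))
  · exact low i (by omega) hi j h

/-- Lemma L1 -/
theorem Shift.all' (hC : Shift H C) (hn : 4 ≤ n) (h2 : R H (ee n F 2) (ee n F 0)) (h3 : R H (ee n F 3) (ee n F 0)) :
    ∀ i j, i < n → j < n → i ≠ j → R H (ee n F i) (ee n F j) := by
  have main : ∀ i, 3 ≤ i → i < n → R H (ee n F (i - 1)) (ee n F 0) ∧ R H (ee n F i) (ee n F 0) ∧ R H (ee n F i) (ee n F (i - 2)) := by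
    intro i hi
    induction i, hi using Nat.le_induction with
    | base =>
      intro _
      obtain ⟨ν, h4⟩ := hC.step (by omega) (by omega) h2
      have := h4.sub (h3.int_smul ν)
      rw [add_sub_cancel_right] at this
      exact ⟨h2, h3, this⟩
    | succ i hi ih =>
      intro hin
      obtain ⟨ih1, ih2, ih3⟩ := ih (by omega)
      obtain ⟨ν, h4⟩ := hC.step hin (by omega) ih3
      have e : i - 2 + 1 = i - 1 := by omega
      rw [e] at h4
      have h5 : R H (ee n F (i + 1)) (ee n F 0) := by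
        have := R.comm ih1 h4 (ee_dot_ne (by omega)) (c := 1) (by
          rw [add_dotProduct, smul_dotProduct, ee_dot_self (by omega), ee_dot_ne (by omega : (0 : ℕ) ≠ i - 1)]; simp)
        rwa [one_smul] at this
      refine ⟨ih2, h5, ?_⟩
      have := h4.sub (h5.int_smul ν)
      rw [add_sub_cancel_right] at this
      exact this
  have hl : R H (ee n F (n - 1)) (ee n F 0) := (main (n - 1) (by omega) (by omega)).2.1
  have h1 : R H (ee n F 1) (ee n F (n - 1)) := hC.back_zero (by omega) h2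
  have h10 : R H (ee n F 1) (ee n F 0) := R.mul_ee' (k := n - 1) (by omega) (by omega) h1 hl
  exact hC.all (by omega) (hC.back_zero (by omega) h10)

/-- generation of the whole group once one irrational root element is present -/
theorem eq_top_of_gen {F : Type*} [Field F] [Fintype F] {H : Subgroup (Matrix.SpecialLinearGroup (Fin n) F)}
    (hn : 3 ≤ n) (hall : ∀ i j, i < n → j < n → i ≠ j → R H (ee n F i) (ee n F j))
    (γ : F) (hγ : ∀ x : F, x ≠ 0 → ∃ k : ℕ, x = γ ^ k) (a b : ℕ) (ha : a < n) (hb : b < n) (hab : a ≠ b)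
    (hγab : R H (ee n F a) (γ • ee n F b)) : H = ⊤ := by
  have third : ∀ i j : ℕ, ∃ k, k < n ∧ k ≠ i ∧ k ≠ j := by
    intro i j
    by_cases h0 : 0 ≠ i ∧ 0 ≠ j
    · exact ⟨0, by omega, h0⟩
    · by_cases h1 : 1 ≠ i ∧ 1 ≠ j
      · exact ⟨1, by omega, h1⟩
      · exact ⟨2, by omega, by omega, by omega⟩
  have s1 : ∀ i, i < n → i ≠ b → R H (ee n F i) (γ • ee n F b) := by
    intro i hi hib
    by_cases hia : i = a
    · rw [hia]; exact hγab
    · have := R.mul_ee ha hib 1 γ (by rw [one_smul]; exact hall i a hi ha hia) hγab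
      rwa [one_mul] at this
  have s2 : ∀ i j, i < n → j < n → i ≠ j → i ≠ b → R H (ee n F i) (γ • ee n F j) := by
    intro i j hi hj hij hib
    by_cases hjb : j = b
    · rw [hjb]; exact s1 i hi hib
    · have := R.mul_ee hb hij γ 1 (s1 i hi hib) (by rw [one_smul]; exact hall b j hb hj (Ne.symm hjb))
      rwa [mul_one] at this
  have s3 : ∀ i j, i < n → j < n → i ≠ j → R H (ee n F i) (γ • ee n F j) := by
    intro i j hi hj hij
    by_cases hib : i = b
    · obtain ⟨k, hk, hki, hkj⟩ := third i j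
      have := R.mul_ee hk hij 1 γ (by rw [one_smul]; exact hall i k hi hk (Ne.symm hki))
        (s2 k j hk hj hkj (by rw [← hib]; exact hki))
      rwa [one_mul] at this
    · exact s2 i j hi hj hij hib
  have s4 : ∀ (m : ℕ) (i j : ℕ), i < n → j < n → i ≠ j → R H (ee n F i) (γ ^ m • ee n F j) := by
    intro m
    induction m with
    | zero => intro i j hi hj hij; rw [pow_zero, one_smul]; exact hall i j hi hj hij
    | succ m ih =>
      intro i j hi hj hij
      obtain ⟨k, hk, hki, hkj⟩ := third i j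
      have := R.mul_ee hk hij (γ ^ m) γ (ih i k hi hk (Ne.symm hki)) (s3 k j hk hj hkj)
      rwa [← pow_succ] at this
  have s5 : ∀ (x : F) (i j : ℕ), i < n → j < n → i ≠ j → R H (ee n F i) (x • ee n F j) := by
    intro x i j hi hj hij
    by_cases hx : x = 0
    · rw [hx, zero_smul]; exact R.zero_right
    · obtain ⟨k, hk⟩ := hγ x hx
      rw [hk]; exact s4 k i j hi hj hij
  rw [eq_top_iff]
  intro A _
  have hnt : Nontrivial (Fin n) := Fin.nontrivial_iff_two_le.mpr (by omega)
  induction A using Cfsg.Agent.H22.SLn.transvection_induction with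
  | htransvec i j hij c =>
    obtain ⟨_, h, hh, he⟩ := s5 c i.val j.val i.2 j.2 (fun h => hij (Fin.ext h))
    have : h = Matrix.SpecialLinearGroup.transvection hij c := by
      apply Subtype.ext
      rw [he, Matrix.SpecialLinearGroup.transvection_coe]
      congr 1
      ext s t
      rw [vecMulVec_apply, Matrix.single_apply]
      simp only [ee, Pi.smul_apply, smul_eq_mul]
      by_cases h1 : s = i <;> by_cases h2 : t = j
      · simp [h1, h2]
      · have : t.val ≠ j.val := fun h => h2 (Fin.ext h)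
        simp [h1, this, Ne.symm h2]
      · have : s.val ≠ i.val := fun h => h1 (Fin.ext h)
        simp [h2, this, Ne.symm h1]
      · have h3 : t.val ≠ j.val := fun h => h2 (Fin.ext h)
        simp [h3, Ne.symm h2]
    rwa [← this]
  | hmul A B hA hB => exact mul_mem (hA trivial) (hB trivial)

end shift

end CfsgLib.Reg1
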