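import Cfsg.Agent.EqBase
import Cfsg.Agent.LibReg1

set_option autoImplicit false

namespace CfsgLib.Reg2

open Matrix CfsgLib.Reg1

variable {F : Type*} [Field F] {n : ℕ}

theorem mulVec_ee (A : Matrix (Fin n) (Fin n) F) (i j : Fin n) : (A *ᵥ ee n F j.val) i = A i j := by
  unfold ee mulVec dotProduct
  rw [Finset.sum_eq_single j]
  · simp
  · intro b _ hb
    have : b.val ≠ j.val := fun h => hb (Fin.ext h)
    simp [this]
  · intro h; exact absurd (Finset.mem_univ _) h

theorem vecMul_ee (A : Matrix (Fin n) (Fin n) F) (i j : Fin n) : (ee n F i.val ᵥ* A) j = A i j := by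
  unfold ee vecMul dotProduct
  rw [Finset.sum_eq_single i]
  · simp
  · intro b _ hb
    have : b.val ≠ i.val := fun h => hb (Fin.ext h)
    simp [this]
  · intro h; exact absurd (Finset.mem_univ _) h

theorem ext_ee {A B : Matrix (Fin n) (Fin n) F} (h : ∀ j, j < n → A *ᵥ ee n F j = B *ᵥ ee n F j) : A = B := by
  ext i j
  rw [← mulVec_ee A i j, ← mulVec_ee B i j, h j.val j.2]

theorem ee_apply (i : ℕ) (k : Fin n) : ee n F i k = if k.val = i then 1 else 0 := rfl

/-- unipotent matrices have determinant one -/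
theorem det_eq_one_of_nilpotent {ι : Type*} [Fintype ι] [DecidableEq ι] (A : Matrix ι ι F) (h : IsNilpotent (A - 1)) :
    A.det = 1 := by
  have h1 := Matrix.isNilpotent_charpoly_sub_pow_of_isNilpotent h
  have h2 : (A - 1).charpoly = Polynomial.X ^ Fintype.card ι := by
    have := h1.eq_zero
    exact sub_eq_zero.mp this
  have h3 := congrArg (Polynomial.eval (-1)) h2
  rw [Matrix.eval_charpoly] at h3
  simp only [Polynomial.eval_pow, Polynomial.eval_X] at h3
  have h4 : (scalar ι) (-1 : F) - (A - 1) = -A := by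
    rw [map_neg, map_one]; abel
  rw [h4, det_neg] at h3
  have h5 : ((-1 : F) ^ Fintype.card ι) ≠ 0 := pow_ne_zero _ (by simp)
  exact mul_left_cancel₀ h5 (by rw [h3, mul_one])

/-- the lower bidiagonal Jordan block -/
def Jm (n : ℕ) (F : Type*) [Field F] : Matrix (Fin n) (Fin n) F :=
  Matrix.of fun i j => if i = j then 1 else if i.val = j.val + 1 then 1 else 0

/-- regular unipotent matrices are conjugate to `Jm`. -/
theorem exists_conj_Jm (A : Matrix (Fin n) (Fin n) F) (h1 : (A - 1) ^ n = 0) (h2 : (A - 1) ^ (n - 1) ≠ 0) :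
    ∃ P : GL (Fin n) F, A * (P : Matrix (Fin n) (Fin n) F) = (P : Matrix (Fin n) (Fin n) F) * Jm n F := by
  set N := A - 1 with hN
  obtain ⟨y, hy⟩ : ∃ y : Fin n → F, (N ^ (n - 1)) *ᵥ y ≠ 0 := by
    by_contra hcon
    push Not at hcon
    apply h2
    apply ext_ee
    intro j hj
    rw [hcon, zero_mulVec]
  let Q : Matrix (Fin n) (Fin n) F := Matrix.of fun i j => ((N ^ j.val) *ᵥ y) i
  have hQcol : ∀ x : Fin n → F, Q *ᵥ x = ∑ j, x j • ((N ^ j.val) *ᵥ y) := by
    intro x
    ext i
    simp only [mulVec, dotProduct, Finset.sum_apply, Pi.smul_apply, smul_eq_mul, Q, Matrix.of_apply]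
    apply Finset.sum_congr rfl
    intro j _
    ring
  have hbig : ∀ k, n ≤ k → N ^ k = 0 := by
    intro k hk
    obtain ⟨d, rfl⟩ := Nat.exists_eq_add_of_le hk
    rw [pow_add, h1, zero_mul]
  have hinj : Function.Injective Q.mulVec := by
    rw [← Matrix.coe_mulVecLin, ← LinearMap.ker_eq_bot, LinearMap.ker_eq_bot']
    intro x hx
    rw [Matrix.mulVecLin_apply, hQcol] at hx
    have key : ∀ k, k < n → ∀ j : Fin n, j.val = k → x j = 0 := by
      intro k
      induction k using Nat.strong_induction_on with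
      | _ k ih =>
        intro hk j hj
        have h3 := congrArg (fun z => (N ^ (n - 1 - k)) *ᵥ z) hx
        simp only [mulVec_zero] at h3
        rw [Matrix.mulVec_sum, Finset.sum_eq_single j] at h3
        · rw [mulVec_smul, mulVec_mulVec, ← pow_add, hj, show n - 1 - k + k = n - 1 by omega] at h3
          rcases smul_eq_zero.mp h3 with h4 | h4
          · exact h4
          · exact absurd h4 hy
        · intro b _ hb
          have hbj : b.val ≠ j.val := fun h => hb (Fin.ext h)
          rcases lt_or_gt_of_ne hbj with h5 | h5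
          · rw [ih b.val (by omega) b.2 b rfl, zero_smul, mulVec_zero]
          · rw [mulVec_smul, mulVec_mulVec, ← pow_add, hbig _ (by omega), zero_mulVec, smul_zero]
        · intro h; exact absurd (Finset.mem_univ _) h
    ext j
    exact key j.val j.2 j rfl
  have hunit : IsUnit Q := Matrix.mulVec_injective_iff_isUnit.mp hinj
  obtain ⟨P, hP⟩ := hunit
  refine ⟨P, ?_⟩
  rw [hP]
  apply ext_ee
  intro j hj
  rw [← mulVec_mulVec, ← mulVec_mulVec]
  have hQe : ∀ k, k < n → Q *ᵥ ee n F k = (N ^ k) *ᵥ y := by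
    intro k hk
    ext i
    rw [show ee n F k = ee n F (⟨k, hk⟩ : Fin n).val from rfl, mulVec_ee]
    rfl
  have hA : A = 1 + N := by rw [hN]; abel
  rw [hQe j hj, hA, add_mulVec, one_mulVec, mulVec_mulVec, ← pow_succ']
  by_cases hj' : j + 1 < n
  · have : Jm n F *ᵥ ee n F j = ee n F j + ee n F (j + 1) := by
      ext i
      rw [show ee n F j = ee n F (⟨j, hj⟩ : Fin n).val from rfl, mulVec_ee]
      simp only [Jm, Matrix.of_apply, Pi.add_apply, ee_apply, Fin.ext_iff]
      by_cases h3 : i.val = j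
      · simp [h3]
      · simp [h3]
    rw [this, mulVec_add, hQe j hj, hQe (j + 1) hj']
  · have : Jm n F *ᵥ ee n F j = ee n F j := by
      ext i
      rw [show ee n F j = ee n F (⟨j, hj⟩ : Fin n).val from rfl, mulVec_ee]
      simp only [Jm, Matrix.of_apply, ee_apply, Fin.ext_iff]
      have := i.2
      by_cases h3 : i.val = j
      · simp [h3]
      · have h4 : i.val ≠ j + 1 := by omega
        simp [h3, h4]
    rw [this, hQe j hj, hbig (j + 1) (by omega), zero_mulVec, add_zero]

/-- coefficients of the companion matrix of `(X-1)^n` -/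
def cc (n i : ℕ) : ℤ := - ((-1) ^ (n - i) * n.choose i)

theorem cc_zero (n : ℕ) : cc n 0 * cc n 0 = 1 := by
  simp only [cc, Nat.sub_zero, Nat.choose_zero_right, Nat.cast_one, mul_one]
  rw [neg_mul_neg, ← pow_add, ← two_mul]
  exact (even_two_mul n).neg_one_pow

/-- companion matrix of `(X-1)^n`. -/
def Cmat (n : ℕ) (F : Type*) [Field F] : Matrix (Fin n) (Fin n) F :=
  Matrix.of fun i j => if j.val = n - 1 then (cc n i.val : F) else if i.val = j.val + 1 then 1 else 0

theorem Cmat_ee {j : ℕ} (hj : j + 1 < n) : Cmat n F *ᵥ ee n F j = ee n F (j + 1) := by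
  ext i
  rw [show ee n F j = ee n F (⟨j, by omega⟩ : Fin n).val from rfl, mulVec_ee]
  simp only [Cmat, Matrix.of_apply, ee_apply]
  rw [if_neg (by omega)]

theorem Cmat_last (hn : 1 ≤ n) : Cmat n F *ᵥ ee n F (n - 1) = fun i => (cc n i.val : F) := by
  ext i
  rw [show ee n F (n - 1) = ee n F (⟨n - 1, by omega⟩ : Fin n).val from rfl, mulVec_ee]
  simp [Cmat]

theorem Cmat_pow_ee {k : ℕ} (hk : k < n) : (Cmat n F ^ k) *ᵥ ee n F 0 = ee n F k := by
  induction k with
  | zero => rw [pow_zero, one_mulVec]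
  | succ k ih => rw [pow_succ', ← mulVec_mulVec, ih (by omega), Cmat_ee hk]

theorem sub_one_pow_eq (A : Matrix (Fin n) (Fin n) F) (m : ℕ) :
    (A - 1) ^ m = ∑ k ∈ Finset.range (m + 1), ((-1) ^ (m - k) * (m.choose k : F)) • A ^ k := by
  have h1 : (A - 1) ^ m = Polynomial.aeval A ((Polynomial.X + Polynomial.C (-1 : F)) ^ m) := by
    simp [sub_eq_add_neg]
  rw [h1, Polynomial.aeval_eq_sum_range' (n := m + 1)]
  · apply Finset.sum_congr rfl
    intro k _
    rw [Polynomial.coeff_X_add_C_pow]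
  · refine lt_of_le_of_lt (Polynomial.natDegree_pow_le) ?_
    rw [Polynomial.natDegree_X_add_C]
    omega

theorem Cmat_sub_one_pow_ee {m : ℕ} (hm : m < n) :
    ((Cmat n F - 1) ^ m) *ᵥ ee n F 0 = fun i => (-1) ^ (m - i.val) * (m.choose i.val : F) := by
  rw [sub_one_pow_eq, Matrix.sum_mulVec]
  ext i
  rw [Finset.sum_apply]
  have h1 : ∀ k ∈ Finset.range (m + 1), ((((-1) ^ (m - k) * (m.choose k : F)) • Cmat n F ^ k) *ᵥ ee n F 0) i =
      if i.val = k then ((-1) ^ (m - k) * (m.choose k : F)) else 0 := by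
    intro k hk
    rw [Finset.mem_range] at hk
    rw [smul_mulVec, Cmat_pow_ee (by omega)]
    simp only [Pi.smul_apply, ee_apply, smul_eq_mul, mul_ite, mul_one, mul_zero]
  rw [Finset.sum_congr rfl h1, Finset.sum_ite_eq]
  split_ifs with h
  · rfl
  · rw [Finset.mem_range] at h
    rw [Nat.choose_eq_zero_of_lt (by omega)]
    simp

theorem Cmat_sub_one_pow (hn : 1 ≤ n) : (Cmat n F - 1) ^ n = 0 := by
  have key : ((Cmat n F - 1) ^ n) *ᵥ ee n F 0 = 0 := by
    rw [sub_one_pow_eq, Matrix.sum_mulVec, Finset.sum_range_succ]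
    ext i
    rw [Pi.add_apply, Finset.sum_apply]
    have h1 : ∀ k ∈ Finset.range n, ((((-1) ^ (n - k) * (n.choose k : F)) • Cmat n F ^ k) *ᵥ ee n F 0) i =
        if i.val = k then ((-1) ^ (n - k) * (n.choose k : F)) else 0 := by
      intro k hk
      rw [Finset.mem_range] at hk
      rw [smul_mulVec, Cmat_pow_ee (by omega)]
      simp only [Pi.smul_apply, ee_apply, smul_eq_mul, mul_ite, mul_one, mul_zero]
    rw [Finset.sum_congr rfl h1, Finset.sum_ite_eq, if_pos (Finset.mem_range.mpr i.2)]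
    have h2 : (Cmat n F ^ n) *ᵥ ee n F 0 = fun i => (cc n i.val : F) := by
      have e : Cmat n F ^ n = Cmat n F * Cmat n F ^ (n - 1) := by
        rw [← pow_succ']; congr 1; omega
      rw [e, ← mulVec_mulVec, Cmat_pow_ee (by omega), Cmat_last hn]
    rw [smul_mulVec, h2]
    simp only [Nat.sub_self, pow_zero, Nat.choose_self, Nat.cast_one, mul_one, one_smul, cc, Pi.zero_apply]
    push_cast
    ring
  apply ext_ee
  intro j hj
  have hcomm : Commute (Cmat n F ^ j) ((Cmat n F - 1) ^ n) :=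
    ((Commute.refl _).sub_right (Commute.one_right _)).pow_pow _ _
  rw [← Cmat_pow_ee hj, mulVec_mulVec, ← hcomm.eq, ← mulVec_mulVec, key, mulVec_zero, zero_mulVec]

theorem Cmat_sub_one_pow_ne (hn : 1 ≤ n) : (Cmat n F - 1) ^ (n - 1) ≠ 0 := by
  intro h
  have h1 := Cmat_sub_one_pow_ee (F := F) (n := n) (m := n - 1) (by omega)
  rw [h, zero_mulVec] at h1
  have h2 := congrFun h1 ⟨n - 1, by omega⟩
  simp at h2

theorem Cmat_det (hn : 1 ≤ n) : (Cmat n F).det = 1 :=
  det_eq_one_of_nilpotent _ ⟨n, Cmat_sub_one_pow hn⟩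

/-- the companion element of `SL_n` -/
def Cs (n : ℕ) (F : Type*) [Field F] (hn : 1 ≤ n) : Matrix.SpecialLinearGroup (Fin n) F :=
  ⟨Cmat n F, Cmat_det hn⟩

theorem shift_Cs (hn : 2 ≤ n) (H : Subgroup (Matrix.SpecialLinearGroup (Fin n) F)) (hH : Cs n F (by omega) ∈ H) :
    Shift H (Cs n F (by omega)) where
  mem := hH
  apply j hj := Cmat_ee hj
  row i hi := by
    refine ⟨-(cc n (i + 1) * cc n 0), ?_⟩
    change _ ᵥ* Cmat n F = _
    ext j
    rw [add_vecMul, smul_vecMul]
    rw [show ee n F (i + 1) = ee n F (⟨i + 1, hi⟩ : Fin n).val from rfl,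
      show ee n F 0 = ee n F (⟨0, by omega⟩ : Fin n).val from rfl]
    rw [Pi.add_apply, Pi.smul_apply, vecMul_ee, vecMul_ee]
    simp only [Cmat, Matrix.of_apply, ee_apply]
    have h0 : (cc n 0 : F) * cc n 0 = 1 := by exact_mod_cast congrArg (Int.cast : ℤ → F) (cc_zero n)
    by_cases hj : j.val = n - 1
    · rw [if_pos hj, if_pos hj, if_neg (by omega)]
      push_cast
      simp only [smul_eq_mul]
      linear_combination (-(cc n (i + 1) : F)) * h0
    · rw [if_neg hj, if_neg hj]
      by_cases h : j.val = i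
      · simp [h]
      · have h' : i ≠ j.val := fun h2 => h h2.symm
        simp [h, h']
  row_zero := by
    refine ⟨cc n 0, cc_zero n, ?_⟩
    change _ ᵥ* Cmat n F = _
    ext j
    rw [show ee n F 0 = ee n F (⟨0, by omega⟩ : Fin n).val from rfl, vecMul_ee]
    simp only [Cmat, Matrix.of_apply, ee_apply, Pi.smul_apply]
    by_cases hj : j.val = n - 1
    · simp [hj]
    · simp [hj]

/-- transport of regularity along conjugation -/
theorem reg_of_conj (A B : Matrix (Fin n) (Fin n) F) (S T : Matrix (Fin n) (Fin n) F) (hST : S * T = 1)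
    (h : A * S = S * B) (hB1 : (B - 1) ^ n = 0) (hB2 : (B - 1) ^ (n - 1) ≠ 0) :
    IsNilpotent (A - 1) ∧ (A - 1) ^ (n - 1) ≠ 0 := by
  have hTS : T * S = 1 := mul_eq_one_comm.mp hST
  have h1 : ∀ k, (A - 1) ^ k * S = S * (B - 1) ^ k := by
    intro k
    induction k with
    | zero => simp
    | succ k ih =>
      have h5 : (A - 1) * S = S * (B - 1) := by rw [sub_mul, mul_sub, h, one_mul, mul_one]
      rw [pow_succ, mul_assoc, h5, ← mul_assoc, ih, mul_assoc, ← pow_succ]
  constructor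
  · refine ⟨n, ?_⟩
    have h2 := h1 n
    rw [hB1, mul_zero] at h2
    calc (A - 1) ^ n = (A - 1) ^ n * S * T := by rw [mul_assoc, hST, mul_one]
      _ = 0 := by rw [h2, zero_mul]
  · intro h3
    apply hB2
    have h2 := h1 (n - 1)
    rw [h3, zero_mul] at h2
    calc (B - 1) ^ (n - 1) = T * (S * (B - 1) ^ (n - 1)) := by rw [← mul_assoc, hTS, one_mul]
      _ = 0 := by rw [← h2, mul_zero]

theorem exists_gen_pow (F : Type*) [Field F] [Finite F] : ∃ γ : F, γ ≠ 0 ∧ ∀ x : F, x ≠ 0 → ∃ k : ℕ, x = γ ^ k := by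
  obtain ⟨g, hg⟩ := IsCyclic.exists_generator (α := Fˣ)
  refine ⟨g, g.ne_zero, fun x hx => ?_⟩
  obtain ⟨k, hk⟩ := (Submonoid.mem_powers_iff _ _).mp (mem_powers_iff_mem_zpowers.mpr (hg (Units.mk0 x hx)))
  refine ⟨k, ?_⟩
  have := congrArg (fun u : Fˣ => (u : F)) hk
  simpa using this.symm

end CfsgLib.Reg2
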