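import Cfsg.Agent.EqBase
import Cfsg.Agent.LibReg2

set_option autoImplicit false

namespace CfsgLib.Reg3

open Matrix CfsgLib.Reg1 CfsgLib.Reg2

variable {F : Type*} [Field F] {n : ℕ}

/-- the vector `s` -/
def sv (n : ℕ) (F : Type*) [Field F] (ρ l c0 c1 c2 : F) : Fin n → F :=
  (-2 : F) • ee n F 0 + (-ρ - 2 * c0 * c1) • ee n F 1 + (-c0 * (c1 * ρ - 2 * c2)) • ee n F 2 + (-c0 * l) • ee n F 3

/-- the functional -/
def tv (n : ℕ) (F : Type*) [Field F] (ρ l : F) : Fin n → F :=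
  ρ • ee n F 1 + (-2 : F) • ee n F 2 + l • ee n F (n - 1)

/-- the matrix of `b = [S, C]`. -/
def Mb (n : ℕ) (F : Type*) [Field F] (ρ l c0 c1 c2 : F) : Matrix (Fin n) (Fin n) F :=
  1 + vecMulVec (sv n F ρ l c0 c1 c2) (ee n F 0) + vecMulVec (ee n F 2) (tv n F ρ l)

/-- the matrix of `S`. -/
def Sm (n : ℕ) (F : Type*) [Field F] (ρ l : F) : Matrix (Fin n) (Fin n) F :=
  1 + vecMulVec ((-2 : F) • ee n F 0 + (-ρ) • ee n F 1) (ee n F 0) + vecMulVec (ee n F 1) ((-2 : F) • ee n F 1) +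
    vecMulVec (ee n F 2) (l • ee n F (n - 1))

theorem Mb_mulVec (ρ l c0 c1 c2 : F) (x : Fin n → F) : Mb n F ρ l c0 c1 c2 *ᵥ x =
    x + (ee n F 0 ⬝ᵥ x) • sv n F ρ l c0 c1 c2 +
      (ρ * (ee n F 1 ⬝ᵥ x) - 2 * (ee n F 2 ⬝ᵥ x) + l * (ee n F (n - 1) ⬝ᵥ x)) • ee n F 2 := by
  unfold Mb tv
  rw [add_mulVec, add_mulVec, one_mulVec, vecMulVec_mulVec, vecMulVec_mulVec, add_dotProduct, add_dotProduct,
    smul_dotProduct, smul_dotProduct, smul_dotProduct]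
  ext i
  simp only [Pi.add_apply, Pi.smul_apply, smul_eq_mul, MulOpposite.smul_eq_mul_unop, MulOpposite.unop_op]
  ring

theorem Sm_mulVec (ρ l : F) (x : Fin n → F) : Sm n F ρ l *ᵥ x =
    x + (ee n F 0 ⬝ᵥ x) • ((-2 : F) • ee n F 0 + (-ρ) • ee n F 1) + (-2 * (ee n F 1 ⬝ᵥ x)) • ee n F 1 +
      (l * (ee n F (n - 1) ⬝ᵥ x)) • ee n F 2 := by
  unfold Sm
  rw [add_mulVec, add_mulVec, add_mulVec, one_mulVec, vecMulVec_mulVec, vecMulVec_mulVec, vecMulVec_mulVec,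
    smul_dotProduct, smul_dotProduct]
  ext i
  simp only [Pi.add_apply, Pi.smul_apply, smul_eq_mul, MulOpposite.smul_eq_mul_unop, MulOpposite.unop_op]
  ring

/-- coordinates of `C x` -/
theorem dot_Cmat_zero (hn : 1 ≤ n) (x : Fin n → F) :
    ee n F 0 ⬝ᵥ (Cmat n F *ᵥ x) = (cc n 0 : F) * (ee n F (n - 1) ⬝ᵥ x) := by
  rw [dotProduct_mulVec]
  have : ee n F 0 ᵥ* Cmat n F = (cc n 0 : F) • ee n F (n - 1) := by
    ext j
    rw [show ee n F 0 = ee n F (⟨0, by omega⟩ : Fin n).val from rfl, vecMul_ee]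
    simp only [Cmat, Matrix.of_apply, ee_apply, Pi.smul_apply]
    by_cases hj : j.val = n - 1
    · simp [hj]
    · simp [hj]
  rw [this, smul_dotProduct, smul_eq_mul]

theorem dot_Cmat_succ {i : ℕ} (hi : i + 1 < n) (x : Fin n → F) :
    ee n F (i + 1) ⬝ᵥ (Cmat n F *ᵥ x) = (ee n F i ⬝ᵥ x) + (cc n (i + 1) : F) * (ee n F (n - 1) ⬝ᵥ x) := by
  rw [dotProduct_mulVec]
  have : ee n F (i + 1) ᵥ* Cmat n F = ee n F i + (cc n (i + 1) : F) • ee n F (n - 1) := by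
    ext j
    rw [show ee n F (i + 1) = ee n F (⟨i + 1, hi⟩ : Fin n).val from rfl, vecMul_ee]
    simp only [Cmat, Matrix.of_apply, ee_apply, Pi.smul_apply, Pi.add_apply, smul_eq_mul]
    by_cases hj : j.val = n - 1
    · have : ¬ (n - 1 = i) := by omega
      simp [hj, this]
    · by_cases h : j.val = i
      · have h3 : ¬ (i = n - 1) := by omega
        simp [h, h3]
      · have h' : ¬ i = j.val := fun h2 => h h2.symm
        simp [hj, h, h']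
  rw [this, add_dotProduct, smul_dotProduct, smul_eq_mul]

/-- the fundamental identity `M_b C S = S C`. -/
theorem Mb_identity (hn : 4 ≤ n) (ρ l : F) (hl : n = 4 → l = 0) :
    Mb n F ρ l (cc n 0) (cc n 1) (cc n 2) * Cmat n F * Sm n F ρ l = Sm n F ρ l * Cmat n F := by
  have h0 : (cc n 0 : F) * cc n 0 = 1 := by exact_mod_cast congrArg (Int.cast : ℤ → F) (cc_zero n)
  apply ext_ee
  intro j _
  generalize ee n F j = x
  rw [← mulVec_mulVec, ← mulVec_mulVec, ← mulVec_mulVec]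
  have e1 : Cmat n F *ᵥ (Sm n F ρ l *ᵥ x) = Cmat n F *ᵥ x + (ee n F 0 ⬝ᵥ x) • ((-2 : F) • ee n F 1 + (-ρ) • ee n F 2) +
      (-2 * (ee n F 1 ⬝ᵥ x)) • ee n F 2 + (l * (ee n F (n - 1) ⬝ᵥ x)) • ee n F 3 := by
    rw [Sm_mulVec, mulVec_add, mulVec_add, mulVec_add, mulVec_smul, mulVec_smul, mulVec_smul, mulVec_add, mulVec_smul,
      mulVec_smul, Cmat_ee (by omega), Cmat_ee (by omega), Cmat_ee (by omega)]
  rw [e1, Mb_mulVec, Sm_mulVec]
  have d1 : ee n F 1 ⬝ᵥ ee n F 1 = (1 : F) := ee_dot_self (by omega)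
  have d2 : ee n F 2 ⬝ᵥ ee n F 2 = (1 : F) := ee_dot_self (by omega)
  have q1 := dot_Cmat_succ (F := F) (i := 0) (by omega) x
  have q2 := dot_Cmat_succ (F := F) (i := 1) (by omega) x
  have q0 := dot_Cmat_zero (F := F) (by omega) x
  have q3 := dot_Cmat_succ (F := F) (i := n - 2) (by omega) x
  rw [show n - 2 + 1 = n - 1 by omega] at q3
  norm_num at q1 q2
  have hlast : l * (ee n F (n - 1) ⬝ᵥ ((l * (ee n F (n - 1) ⬝ᵥ x)) • ee n F 3)) = 0 := by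
    by_cases h : n = 4
    · rw [hl h]; simp
    · rw [dotProduct_smul, ee_dot_ne (by omega)]; simp
  have z1 : ee n F 0 ⬝ᵥ ee n F 1 = (0 : F) := ee_dot_ne (by omega)
  have z2 : ee n F 0 ⬝ᵥ ee n F 2 = (0 : F) := ee_dot_ne (by omega)
  have z3 : ee n F 0 ⬝ᵥ ee n F 3 = (0 : F) := ee_dot_ne (by omega)
  have z4 : ee n F 1 ⬝ᵥ ee n F 2 = (0 : F) := ee_dot_ne (by omega)
  have z5 : ee n F 1 ⬝ᵥ ee n F 3 = (0 : F) := ee_dot_ne (by omega)
  have z6 : ee n F 2 ⬝ᵥ ee n F 1 = (0 : F) := ee_dot_ne (by omega)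
  have z7 : ee n F 2 ⬝ᵥ ee n F 3 = (0 : F) := ee_dot_ne (by omega)
  have z8 : ee n F (n - 1) ⬝ᵥ ee n F 1 = (0 : F) := ee_dot_ne (by omega)
  have z9 : ee n F (n - 1) ⬝ᵥ ee n F 2 = (0 : F) := ee_dot_ne (by omega)
  simp only [dotProduct_add, dotProduct_smul, smul_eq_mul, q0, q1, q2, q3, d1, d2, z1, z2, z3, z4, z5, z6, z7, z8, z9] at hlast ⊢
  ext i
  simp only [sv, Pi.add_apply, Pi.smul_apply, smul_eq_mul]
  set X := ee n F (n - 1) ⬝ᵥ x
  set a0 := ee n F 0 i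
  set a1 := ee n F 1 i
  set a2 := ee n F 2 i
  set a3 := ee n F 3 i
  linear_combination (-X * (2 * (cc n 1 : F) * a1 + ((cc n 1 : F) * ρ - 2 * (cc n 2 : F)) * a2 + l * a3)) * h0 + a2 * hlast

theorem Mb_sq (hn : 4 ≤ n) (ρ l c0 c1 c2 : F) (hl : n = 4 → l = 0) :
    Mb n F ρ l c0 c1 c2 * Mb n F ρ l c0 c1 c2 = 1 + vecMulVec (ee n F 2) ((-(ρ ^ 2 + 4 * (c0 * c2))) • ee n F 0) := by
  apply ext_ee
  intro j _
  generalize ee n F j = x
  rw [← mulVec_mulVec, Mb_mulVec _ _ _ _ _ (Mb n F ρ l c0 c1 c2 *ᵥ x), Mb_mulVec, add_mulVec, one_mulVec, vecMulVec_mulVec]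
  have hs3 : l * (ee n F (n - 1) ⬝ᵥ ee n F 3 * (-c0 * l)) = 0 := by
    by_cases h : n = 4
    · rw [hl h]; simp
    · rw [ee_dot_ne (by omega)]; simp
  have d0 : ee n F 0 ⬝ᵥ ee n F 0 = (1 : F) := ee_dot_self (by omega)
  have d1 : ee n F 1 ⬝ᵥ ee n F 1 = (1 : F) := ee_dot_self (by omega)
  have d2 : ee n F 2 ⬝ᵥ ee n F 2 = (1 : F) := ee_dot_self (by omega)
  have z1 : ee n F 0 ⬝ᵥ ee n F 1 = (0 : F) := ee_dot_ne (by omega)
  have z2 : ee n F 0 ⬝ᵥ ee n F 2 = (0 : F) := ee_dot_ne (by omega)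
  have z3 : ee n F 0 ⬝ᵥ ee n F 3 = (0 : F) := ee_dot_ne (by omega)
  have z4 : ee n F 1 ⬝ᵥ ee n F 2 = (0 : F) := ee_dot_ne (by omega)
  have z5 : ee n F 1 ⬝ᵥ ee n F 3 = (0 : F) := ee_dot_ne (by omega)
  have z6 : ee n F 2 ⬝ᵥ ee n F 1 = (0 : F) := ee_dot_ne (by omega)
  have z7 : ee n F 2 ⬝ᵥ ee n F 3 = (0 : F) := ee_dot_ne (by omega)
  have z8 : ee n F (n - 1) ⬝ᵥ ee n F 1 = (0 : F) := ee_dot_ne (by omega)
  have z9 : ee n F (n - 1) ⬝ᵥ ee n F 2 = (0 : F) := ee_dot_ne (by omega)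
  have z10 : ee n F 1 ⬝ᵥ ee n F 0 = (0 : F) := ee_dot_ne (by omega)
  have z11 : ee n F 2 ⬝ᵥ ee n F 0 = (0 : F) := ee_dot_ne (by omega)
  have z12 : ee n F (n - 1) ⬝ᵥ ee n F 0 = (0 : F) := ee_dot_ne (by omega)
  simp only [sv, dotProduct_add, dotProduct_smul, smul_eq_mul, smul_dotProduct, d0, d1, d2, z1, z2, z3, z4, z5, z6, z7, z8,
    z9, z10, z11, z12]
  ext i
  simp only [Pi.add_apply, Pi.smul_apply, smul_eq_mul, MulOpposite.smul_eq_mul_unop, MulOpposite.unop_op]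
  set X := ee n F (n - 1) ⬝ᵥ x
  set x0 := ee n F 0 ⬝ᵥ x
  set a2 := ee n F 2 i
  linear_combination (x0 * a2) * hs3

/-- the matrix `S` in `SL_n` -/
theorem exists_S (hn : 4 ≤ n) (ρ l : F) :
    ∃ S : Matrix.SpecialLinearGroup (Fin n) F, (S : Matrix (Fin n) (Fin n) F) = Sm n F ρ l := by
  have h01 : (⟨0, by omega⟩ : Fin n) ≠ ⟨1, by omega⟩ := by
    intro h; have := congrArg Fin.val h; simp at this
  have h10 := h01.symm
  have h2n : (⟨2, by omega⟩ : Fin n) ≠ ⟨n - 1, by omega⟩ := by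
    intro h; have := congrArg Fin.val h; simp at this; omega
  refine ⟨Matrix.SpecialLinearGroup.diag2n h01 (-1 : F) (by simp) * Matrix.SpecialLinearGroup.transvection h10 ρ *
    Matrix.SpecialLinearGroup.transvection h2n l, ?_⟩
  rw [coe_mul', coe_mul', Matrix.SpecialLinearGroup.transvection_coe, Matrix.SpecialLinearGroup.transvection_coe,
    Matrix.SpecialLinearGroup.diag2n_coe]
  have e1 : ∀ (i j : Fin n) (c : F), Matrix.single i j c = vecMulVec (ee n F i.val) (c • ee n F j.val) := by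
    intro i j c
    ext s t
    rw [vecMulVec_apply, Matrix.single_apply]
    simp only [ee, Pi.smul_apply, smul_eq_mul]
    by_cases h1 : s = i <;> by_cases h2 : t = j
    · simp [h1, h2]
    · have : t.val ≠ j.val := fun h => h2 (Fin.ext h)
      simp [h1, this, Ne.symm h2]
    · have : s.val ≠ i.val := fun h => h1 (Fin.ext h)
      simp [h2, this, Ne.symm h1]
    · have h3 : t.val ≠ j.val := fun h => h2 (Fin.ext h)
      simp [h3, Ne.symm h2]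
  rw [e1, e1]
  apply ext_ee
  intro j _
  generalize ee n F j = x
  rw [← mulVec_mulVec, ← mulVec_mulVec, Sm_mulVec]
  have e2 : ∀ y : Fin n → F, (diagonal fun k : Fin n => if k = (⟨0, by omega⟩ : Fin n) then (-1 : F) else
      if k = (⟨1, by omega⟩ : Fin n) then (-1 : F)⁻¹ else 1) *ᵥ y =
      y + (-2 * (ee n F 0 ⬝ᵥ y)) • ee n F 0 + (-2 * (ee n F 1 ⬝ᵥ y)) • ee n F 1 := by
    intro y
    have ed : ∀ (i : ℕ) (hi : i < n), ee n F i ⬝ᵥ y = y ⟨i, hi⟩ := by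
      intro i hi
      unfold ee dotProduct
      rw [Finset.sum_eq_single (⟨i, hi⟩ : Fin n)]
      · simp
      · intro b _ hb
        have : b.val ≠ i := fun h => hb (Fin.ext h)
        simp [this]
      · intro h; exact absurd (Finset.mem_univ _) h
    ext k
    rw [mulVec_diagonal, ed 0 (by omega), ed 1 (by omega)]
    simp only [Pi.add_apply, Pi.smul_apply, smul_eq_mul, ee_apply, Fin.ext_iff]
    by_cases h0 : k.val = 0
    · have hk : y ⟨0, by omega⟩ = y k := by congr 1; exact Fin.ext h0.symm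
      simp [h0, hk]
      ring
    · by_cases h1 : k.val = 1
      · have hk : y ⟨1, by omega⟩ = y k := by congr 1; exact Fin.ext h1.symm
        simp [h1, hk]
        ring
      · simp [h0, h1]
  rw [e2]
  have d0 : ee n F 0 ⬝ᵥ ee n F 0 = (1 : F) := ee_dot_self (by omega)
  have d1 : ee n F 1 ⬝ᵥ ee n F 1 = (1 : F) := ee_dot_self (by omega)
  have z1 : ee n F 0 ⬝ᵥ ee n F 1 = (0 : F) := ee_dot_ne (by omega)
  have z2 : ee n F 0 ⬝ᵥ ee n F 2 = (0 : F) := ee_dot_ne (by omega)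
  have z4 : ee n F 1 ⬝ᵥ ee n F 2 = (0 : F) := ee_dot_ne (by omega)
  have z8 : ee n F (n - 1) ⬝ᵥ ee n F 1 = (0 : F) := ee_dot_ne (by omega)
  have z9 : ee n F (n - 1) ⬝ᵥ ee n F 2 = (0 : F) := ee_dot_ne (by omega)
  simp only [add_mulVec, one_mulVec, vecMulVec_mulVec, dotProduct_add, dotProduct_smul, smul_dotProduct, d0, d1, z1, z2, z4, z8, z9,
    smul_eq_mul]
  ext i
  simp only [Pi.add_apply, Pi.smul_apply, smul_eq_mul, MulOpposite.smul_eq_mul_unop, MulOpposite.unop_op, dotProduct_add,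
    dotProduct_smul, smul_dotProduct, d0, d1, z1, z2, z4, z8, z9]
  ring

end CfsgLib.Reg3
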