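import Cfsg.Agent.LibAutO27l
import Cfsg.Agent.LibSemi27
import Cfsg.Agent.LibAutPSL27d
import Mathlib.GroupTheory.SemidirectProduct

set_option autoImplicit false

/-! The semisimilarity group acting on `PΩ(Q)`. -/

namespace CfsgLib.RhoO27

open Cfsg.Agent.H22 CfsgLib.Semi27 CfsgLib.AutO27 Matrix Module

section gl
variable {F : Type*} [Field F] {ι : Type} [Fintype ι] [DecidableEq ι]

/-- `Aut F` acting on `GL` -/
noncomputable def gmA : (F ≃+* F) →* MulAut (GL ι F) where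
  toFun σ :=
    { toFun := gm σ
      invFun := gm σ⁻¹
      left_inv := fun g => by
        have := gm_gm_inv (σ⁻¹ : F ≃+* F) g
        rwa [inv_inv] at this
      right_inv := fun g => gm_gm_inv σ g
      map_mul' := map_mul _ }
  map_one' := MulEquiv.ext fun g => Units.ext (by ext i j; rfl)
  map_mul' σ τ := MulEquiv.ext fun g => (gm_mul_aut σ τ g).symm

theorem gmA_apply (σ : F ≃+* F) (g : GL ι F) : gmA σ g = gm σ g := rfl

/-- the semilinear group -/
abbrev GamL (ι : Type) [Fintype ι] [DecidableEq ι] (F : Type*) [Field F] := SemidirectProduct (GL ι F) (F ≃+* F) gmA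

/-- action on vectors -/
def act (x : GamL ι F) (v : ι → F) : ι → F := (x.left : Matrix ι ι F) *ᵥ (x.right ∘ v)

theorem act_mul (x y : GamL ι F) (v : ι → F) : act (x * y) v = act x (act y v) := by
  show ((x.left * gm x.right y.left : GL ι F) : Matrix ι ι F) *ᵥ ((x.right * y.right : F ≃+* F) ∘ v) = _
  rw [Units.val_mul, ← mulVec_mulVec, coe_gm]
  unfold act
  congr 1
  rw [← gm_mulVec]
  congr 1

theorem act_one (v : ι → F) : act (1 : GamL ι F) v = v := by
  show ((1 : GL ι F) : Matrix ι ι F) *ᵥ v = v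
  simp

theorem act_inv (x : GamL ι F) (v : ι → F) : act x (act x⁻¹ v) = v := by rw [← act_mul, mul_inv_cancel, act_one]

theorem act_inv' (x : GamL ι F) (v : ι → F) : act x⁻¹ (act x v) = v := by rw [← act_mul, inv_mul_cancel, act_one]

theorem act_add (x : GamL ι F) (v w : ι → F) : act x (v + w) = act x v + act x w := by
  unfold act
  rw [← mulVec_add]
  congr 1
  ext i; simp

theorem act_smul (x : GamL ι F) (a : F) (v : ι → F) : act x (a • v) = x.right a • act x v := by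
  unfold act
  rw [← mulVec_smul]
  congr 1
  ext i; simp

/-- conjugation action on `GL` -/
noncomputable def cjG : GamL ι F →* MulAut (GL ι F) :=
  SemidirectProduct.lift MulAut.conj gmA (by
    intro σ
    ext g h : 2
    show gmA σ g * h * (gmA σ g)⁻¹ = gmA σ (g * gmA σ⁻¹ h * g⁻¹)
    rw [map_mul, map_mul, map_inv (gmA σ) g, map_inv gmA σ, MulAut.apply_inv_self])

theorem cjG_apply (x : GamL ι F) (s : GL ι F) : cjG x s = x.left * gm x.right s * x.left⁻¹ := rfl

theorem cjG_act (x : GamL ι F) (s : GL ι F) (v : ι → F) :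
    ((cjG x s : GL ι F) : Matrix ι ι F) *ᵥ (act x v) = act x ((s : Matrix ι ι F) *ᵥ v) := by
  rw [cjG_apply, Units.val_mul, Units.val_mul, ← mulVec_mulVec, ← mulVec_mulVec]
  unfold act
  have h : ((x.left⁻¹ : GL ι F) : Matrix ι ι F) *ᵥ ((x.left : Matrix ι ι F) *ᵥ (x.right ∘ v)) = x.right ∘ v := by
    rw [mulVec_mulVec, Units.inv_mul, one_mulVec]
  rw [h, coe_gm, gm_mulVec]

end gl

section res
variable {Γ G : Type*} [Group Γ] [Group G]

/-- restriction of an action by automorphisms to an invariant subgroup -/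
def resAut (φ : Γ →* MulAut G) (H : Subgroup G) (hH : ∀ γ, ∀ h ∈ H, φ γ h ∈ H) : Γ →* MulAut H where
  toFun γ :=
    { toFun := fun h => ⟨φ γ h.1, hH γ _ h.2⟩
      invFun := fun h => ⟨φ γ⁻¹ h.1, hH γ⁻¹ _ h.2⟩
      left_inv := fun h => Subtype.ext (by simp)
      right_inv := fun h => Subtype.ext (by simp)
      map_mul' := fun a b => Subtype.ext (map_mul _ _ _) }
  map_one' := MulEquiv.ext fun h => Subtype.ext (by simp)
  map_mul' a b := MulEquiv.ext fun h => Subtype.ext (by simp)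

theorem resAut_coe (φ : Γ →* MulAut G) (H : Subgroup G) (hH : ∀ γ, ∀ h ∈ H, φ γ h ∈ H) (γ : Γ) (h : H) :
    ((resAut φ H hH γ h : H) : G) = φ γ h.1 := rfl

end res

section form
variable {F : Type*} [Field F] {ι : Type} [Fintype ι] [DecidableEq ι]

/-- the group of semisimilarities -/
noncomputable def SP (Q : QuadraticForm F (ι → F)) : Subgroup (GamL ι F) where
  carrier := {x | ∃ c : Fˣ, ∀ v, Q (act x v) = c * x.right (Q v)}
  one_mem' := ⟨1, fun v => by rw [act_one, Units.val_one, one_mul]; rfl⟩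
  mul_mem' := by
    rintro x y ⟨c, hc⟩ ⟨d, hd⟩
    refine ⟨c * Units.map ((x.right : F →+* F) : F →* F) d, fun v => ?_⟩
    rw [act_mul, hc, hd, map_mul, Units.val_mul, mul_assoc]
    rfl
  inv_mem' := by
    rintro x ⟨c, hc⟩
    refine ⟨Units.map ((x⁻¹.right : F →+* F) : F →* F) c⁻¹, fun v => ?_⟩
    have h1 := hc (act x⁻¹ v)
    rw [act_inv] at h1
    show _ = x.right⁻¹ ((c⁻¹ : Fˣ) : F) * x.right⁻¹ (Q v)
    rw [← map_mul, h1, Units.inv_mul_cancel_left]
    exact (x.right.symm_apply_apply _).symm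

variable {Q : QuadraticForm F (ι → F)}

theorem mem_SP {x : GamL ι F} : x ∈ SP Q ↔ ∃ c : Fˣ, ∀ v, Q (act x v) = c * x.right (Q v) := Iff.rfl

theorem mem_SP_iff {x : GamL ι F} : x ∈ SP Q ↔ Cfsg.IsSemisimilarityPair ⇑Q x.left x.right := Iff.rfl

theorem cjG_mem (x : SP Q) {s : GL ι F} (hs : s ∈ Cfsg.isometryGroup F ⇑Q) : cjG x.1 s ∈ Cfsg.isometryGroup F ⇑Q := by
  rw [mem_isometryGroup] at hs ⊢
  obtain ⟨c, hc⟩ := x.2
  intro v
  rw [← act_inv x.1 v, cjG_act, hc, hs, hc]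

/-- action on the isometry group -/
noncomputable def cjI (Q : QuadraticForm F (ι → F)) : SP Q →* MulAut (Cfsg.isometryGroup F ⇑Q) :=
  resAut (cjG.comp (SP Q).subtype) (Cfsg.isometryGroup F ⇑Q) fun x _ hs => cjG_mem x hs

/-- action on `Ω` -/
noncomputable def cjO (Q : QuadraticForm F (ι → F)) : SP Q →* MulAut (Cfsg.Omega F ⇑Q) :=
  resAut (cjI Q) (Cfsg.Omega F ⇑Q) fun x s hs =>
    (Subgroup.characteristic_iff_map_le.1 (inferInstance : (commutator (Cfsg.isometryGroup F ⇑Q)).Characteristic) (cjI Q x)) ⟨s, hs, rfl⟩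

theorem cjO_coe (x : SP Q) (s : Cfsg.Omega F ⇑Q) : (((cjO Q x s : Cfsg.Omega F ⇑Q) : Cfsg.isometryGroup F ⇑Q) : GL ι F) =
    x.1.left * gm x.1.right ((s : Cfsg.isometryGroup F ⇑Q) : GL ι F) * x.1.left⁻¹ := rfl

/-- action on `PΩ` -/
noncomputable def R (Q : QuadraticForm F (ι → F)) : SP Q →* MulAut (Cfsg.POmega F ⇑Q) :=
  CfsgLib.AutPSL27.lft.comp (cjO Q)

theorem R_mk (x : SP Q) (s : Cfsg.Omega F ⇑Q) : R Q x (QuotientGroup.mk s) = QuotientGroup.mk (cjO Q x s) := rfl

theorem isInd_iff {x : GamL ι F} (hx : x ∈ SP Q) (β : MulAut (Cfsg.POmega F ⇑Q)) :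
    Cfsg.IsInducedBySemilinearPOmega ⇑Q x.left x.right β ↔ β = R Q ⟨x, hx⟩ := by
  constructor
  · intro h
    apply MulEquiv.ext
    intro y
    induction y using QuotientGroup.induction_on with
    | H s => exact h s (cjO Q ⟨x, hx⟩ s) (by rw [cjO_coe]; rfl)
  · rintro rfl s s' hss
    rw [R_mk]
    congr 1
    apply Subtype.ext
    apply Subtype.ext
    apply Units.ext
    rw [cjO_coe, hss]; rfl

theorem isStd_iff {σ : F ≃+* F} (hx : (⟨1, σ⟩ : GamL ι F) ∈ SP Q) (β : MulAut (Cfsg.POmega F ⇑Q)) :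
    Cfsg.IsFieldAutPOmegaOf ⇑Q σ β ↔ β = R Q ⟨⟨1, σ⟩, hx⟩ := by
  rw [← isInd_iff hx]
  unfold Cfsg.IsFieldAutPOmegaOf Cfsg.IsInducedBySemilinearPOmega
  refine forall_congr' fun s => forall_congr' fun s' => ?_
  have : ((1 : GL ι F) : Matrix ι ι F) * ((((s : ↥(Cfsg.isometryGroup F ⇑Q)) : GL ι F) : Matrix ι ι F)).map σ * (((1 : GL ι F)⁻¹ : GL ι F) : Matrix ι ι F) =
      ((((s : ↥(Cfsg.isometryGroup F ⇑Q)) : GL ι F) : Matrix ι ι F)).map σ := by simp
  show _ ↔ (_ = ((1 : GL ι F) : Matrix ι ι F) * ((((s : ↥(Cfsg.isometryGroup F ⇑Q)) : GL ι F) : Matrix ι ι F)).map σ * (((1 : GL ι F)⁻¹ : GL ι F) : Matrix ι ι F) → _)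
  rw [this]

/-- the semisimilarity as a structure -/
noncomputable def ssOf (x : SP Q) : SS Q where
  S := { toFun := act x.1
         invFun := act x.1⁻¹
         left_inv := act_inv' x.1
         right_inv := act_inv x.1
         map_add' := act_add x.1 }
  σ := x.1.right
  c := (mem_SP.1 x.2).choose
  c0 := (mem_SP.1 x.2).choose.ne_zero
  smul := act_smul x.1
  q := (mem_SP.1 x.2).choose_spec

end form

end CfsgLib.RhoO27
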