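import Cfsg.Agent.LibRhoO27a

set_option autoImplicit false

/-! The kernel of the action on `PΩ(Q)`, inner automorphisms. -/

namespace CfsgLib.AutO27

open Cfsg.Agent.H22 CfsgLib.SylCen27 Module

variable {F V : Type*} [Field F] [Finite F] [AddCommGroup V] [Module F V] [FiniteDimensional F V] {Q : QuadraticForm F V}

local notation "B" => QuadraticMap.polar Q

variable {e f : Fin 3 → V} {u : V}

/-- a semisimilarity acting trivially is a scalar -/
theorem Good.scalar_of (h : Good Q e f u) (s : SS Q) (hs : ∀ g : EG Q, pi Q (s.aut g) = pi Q g) :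
    s.σ = 1 ∧ ∃ a : F, a ≠ 0 ∧ ∀ v, s.S v = a • v := by
  obtain ⟨p, hp⟩ := CharP.exists F
  haveI : Fact p.Prime := ⟨CharP.char_is_prime F p⟩
  -- `S` commutes with Eichler elements
  have h1 : ∀ v w, Q v = 0 → B v w = 0 → s.aut (E Q v w) = E Q v w := by
    intro v w hv hw
    refine h.pi_inj (p := p) 1 ?_ ?_ (hs _)
    · rw [pow_one, ← map_pow, E_pow_p hv hw, map_one]
    · rw [pow_one, E_pow_p hv hw]
  have h2 : ∀ g : EG Q, s.aut g = g := by
    have main : ∀ (x : OGrp Q), x ∈ Subgroup.closure {g | ∃ v w, ∃ (hv : Q v = 0) (hw : QuadraticMap.polar Q v w = 0), g = oEich Q v w hv hw} →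
        ∃ hx : x ∈ EG Q, s.aut ⟨x, hx⟩ = ⟨x, hx⟩ := by
      intro x hx'
      induction hx' using Subgroup.closure_induction with
      | mem x hx =>
        obtain ⟨v, w, hv, hw, rfl⟩ := hx
        refine ⟨oEich_mem v w hv hw, ?_⟩
        rw [← E_def hv hw]
        exact h1 v w hv hw
      | one => exact ⟨one_mem _, map_one s.aut⟩
      | mul x y _ _ hx hy =>
        obtain ⟨a1, a1'⟩ := hx
        obtain ⟨a2, a2'⟩ := hy
        refine ⟨mul_mem a1 a2, ?_⟩
        have : (⟨x * y, mul_mem a1 a2⟩ : EG Q) = ⟨x, a1⟩ * ⟨y, a2⟩ := rfl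
        rw [this, map_mul, a1', a2']
      | inv x _ hx =>
        obtain ⟨a1, a1'⟩ := hx
        refine ⟨inv_mem a1, ?_⟩
        have : (⟨x⁻¹, inv_mem a1⟩ : EG Q) = ⟨x, a1⟩⁻¹ := rfl
        rw [this, map_inv, a1']
    rintro ⟨x, hx⟩
    obtain ⟨_, hm⟩ := main x hx
    exact hm
  have h3 : ∀ (g : EG Q) v, s.S (g.1.1 v) = g.1.1 (s.S v) := by
    intro g v
    rw [← s.aut_S, h2]
  have hxy := h.hs.h1
  -- `S e₀` is a multiple of `e₀`
  have hB0 : ∀ w, B (e 0) w = 0 → B (e 0) (s.S (e 0)) • w = (B w (s.S (e 0)) + Q w * B (e 0) (s.S (e 0))) • e 0 := by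
    intro w hw
    have h4 := h3 (E Q (e 0) w) (e 0)
    have h5 : (E Q (e 0) w).1.1 (e 0) = e 0 := by
      rw [E_apply hxy.1 hw, hxy.ee, bsymm w, hw]; simp
    rw [h5, E_apply hxy.1 hw] at h4
    have h6 : B (e 0) (s.S (e 0)) • w - (B w (s.S (e 0)) + Q w * B (e 0) (s.S (e 0))) • e 0 = 0 := by
      have h7 : s.S (e 0) + B (e 0) (s.S (e 0)) • w - B w (s.S (e 0)) • e 0 - (Q w * B (e 0) (s.S (e 0))) • e 0 - s.S (e 0) = 0 := by
        rw [← h4, sub_self]
      rw [← h7]; module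
    exact sub_eq_zero.1 h6
  have hBe : B (e 0) (s.S (e 0)) = 0 := by
    have h4 := hB0 (e 1) (h.fr.ee 0 1)
    have h5 := congrArg (fun z => B (f 1) z) h4
    simp only [QuadraticMap.polar_smul_right] at h5
    rw [h.fr.fe 1, h.fr.fe' 1 0 (by decide)] at h5
    simpa using h5
  have hBw : ∀ w, B (e 0) w = 0 → B w (s.S (e 0)) = 0 := by
    intro w hw
    have h4 := hB0 w hw
    rw [hBe, zero_smul, mul_zero, add_zero] at h4
    exact (smul_eq_zero.1 h4.symm).resolve_right hxy.ne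
  obtain ⟨a, ha⟩ : ∃ a : F, s.S (e 0) = a • e 0 := by
    by_contra hcon
    push Not at hcon
    obtain ⟨x, hx1, hx2⟩ := dual_pair h.nd hcon
    have h5 := hBw x hx1
    rw [bsymm, hx2] at h5
    exact one_ne_zero h5
  have ha0 : a ≠ 0 := by
    rintro rfl
    rw [zero_smul] at ha
    exact hxy.ne ((AddEquiv.map_eq_zero_iff s.S).1 ha)
  -- all singular vectors
  have hsing : ∀ v, Q v = 0 → s.S v = a • v := by
    intro v hv
    by_cases hv0 : v = 0
    · rw [hv0, map_zero, smul_zero]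
    · obtain ⟨g, hg, hgv⟩ := h.hs.trans h.nd (e 0) v hxy.ne hv0 (by rw [hxy.1, hv])
      have h4 := h3 ⟨g, hg⟩ (e 0)
      have h5 : (⟨g, hg⟩ : EG Q).1.1 (e 0) = v := hgv
      rw [h5, ha, map_smul, h5] at h4
      exact h4
  refine ⟨?_, a, ha0, ?_⟩
  · ext c
    have h4 := hsing (c • e 0) (by rw [qsmul, hxy.1, mul_zero])
    rw [s.smul, hsing _ hxy.1, smul_smul, smul_smul, ← sub_eq_zero, ← sub_smul] at h4
    have h5 := (smul_eq_zero.1 h4).resolve_right hxy.ne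
    have h6 : a * (s.σ c - c) = 0 := by linear_combination h5
    exact sub_eq_zero.1 ((mul_eq_zero.1 h6).resolve_left ha0)
  · intro v
    obtain ⟨b, c, t, ht, hv, -⟩ := sing_decomp hxy v
    rw [hv, map_add, map_add, hsing _ (by rw [qsmul, hxy.1, mul_zero]), hsing _ (by rw [qsmul, hxy.2.1, mul_zero]), hsing t ht, smul_add, smul_add]

end CfsgLib.AutO27

namespace CfsgLib.RhoO27

open Cfsg.Agent.H22 CfsgLib.Semi27 CfsgLib.AutO27 Matrix Module

variable {F : Type*} [Field F] [Finite F] {ι : Type} [Fintype ι] [DecidableEq ι] {Q : QuadraticForm F (ι → F)}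
  {e f : Fin 3 → (ι → F)} {u : ι → F}

theorem Th_cjO (h : Good Q e f u) (x : SP Q) (s : Cfsg.Omega F ⇑Q) : h.Th (cjO Q x s) = (ssOf x).aut (h.Th s) := by
  apply g_ext
  intro v
  obtain ⟨y, rfl⟩ := (ssOf x).S.surjective v
  rw [(ssOf x).aut_S, h.Th_apply, h.Th_apply]
  exact cjG_act x.1 _ y

theorem scal_act (a : Fˣ) (v : ι → F) : act (⟨scal a, 1⟩ : GamL ι F) v = (a : F) • v := by
  unfold act
  exact scal_mulVec a v

theorem R_ker (h : Good Q e f u) (x : SP Q) : R Q x = 1 ↔ x.1.right = 1 ∧ ∃ a : Fˣ, x.1.left = scal a := by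
  constructor
  · intro hx
    have h1 : ∀ g : EG Q, pi Q ((ssOf x).aut g) = pi Q g := by
      intro g
      obtain ⟨s, rfl⟩ := h.Th.surjective g
      rw [← Th_cjO, ← h.ThP_mk, ← h.ThP_mk, ← R_mk, hx]
      rfl
    obtain ⟨h2, a, ha0, ha⟩ := h.scalar_of (ssOf x) h1
    have h2' : x.1.right = 1 := h2
    refine ⟨h2', Units.mk0 a ha0, ?_⟩
    apply Units.ext
    apply eq_of_mulVec_single
    intro i
    have h3 : act x.1 (Pi.single i 1) = a • Pi.single i 1 := ha _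
    unfold act at h3
    rw [comp_single] at h3
    rw [h3, scal_mulVec]; rfl
  · rintro ⟨h1, a, h2⟩
    apply MulEquiv.ext
    intro y
    induction y using QuotientGroup.induction_on with
    | H s =>
      rw [R_mk]
      show _ = QuotientGroup.mk s
      congr 1
      apply Subtype.ext
      apply Subtype.ext
      rw [cjO_coe, h1, h2, scal_comm]
      have : gm (1 : F ≃+* F) ((s : Cfsg.isometryGroup F ⇑Q) : GL ι F) = ((s : Cfsg.isometryGroup F ⇑Q) : GL ι F) := Units.ext (by ext i j; rfl)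
      rw [this, mul_inv_cancel_right]

theorem R_surj (h : Good Q e f u) : Function.Surjective (R Q) := by
  intro β
  obtain ⟨g, σ, h1, h2⟩ := h.pomega_main β
  have h3 : (⟨g, σ⟩ : GamL ι F) ∈ SP Q := h1
  exact ⟨⟨_, h3⟩, ((isInd_iff h3 β).1 h2).symm⟩

/-- isometries as semisimilarities -/
noncomputable def jI (Q : QuadraticForm F (ι → F)) : Cfsg.isometryGroup F ⇑Q →* SP Q :=
  (SemidirectProduct.inl.comp (Cfsg.isometryGroup F ⇑Q).subtype).codRestrict (SP Q) fun s =>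
    ⟨1, fun v => by rw [Units.val_one, one_mul]; exact (mem_isometryGroup Q).1 s.2 v⟩

theorem jI_left (s : Cfsg.isometryGroup F ⇑Q) : (jI Q s).1.left = s := rfl

theorem jI_right (s : Cfsg.isometryGroup F ⇑Q) : (jI Q s).1.right = 1 := rfl

theorem conj_mk (s : Cfsg.Omega F ⇑Q) : MulAut.conj (QuotientGroup.mk s : Cfsg.POmega F ⇑Q) = R Q (jI Q s.1) := by
  apply MulEquiv.ext
  intro y
  induction y using QuotientGroup.induction_on with
  | H t =>
    rw [R_mk]
    show QuotientGroup.mk (s * t * s⁻¹) = _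
    congr 1

theorem R_eq_iff (h : Good Q e f u) (x y : SP Q) : R Q x = R Q y ↔ x.1.right = y.1.right ∧ ∃ a : Fˣ, x.1.left = scal a * y.1.left := by
  rw [← mul_inv_eq_one, ← map_inv, ← map_mul, R_ker h]
  have h1 : (x * y⁻¹ : SP Q).1.right = x.1.right * y.1.right⁻¹ := rfl
  have h2 : (x * y⁻¹ : SP Q).1.left = x.1.left * gm x.1.right (gm y.1.right⁻¹ y.1.left⁻¹) := rfl
  rw [h1, h2, mul_inv_eq_one]
  constructor
  · rintro ⟨e1, a, e2⟩
    refine ⟨e1, a, ?_⟩
    rw [e1, gm_gm_inv] at e2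
    exact mul_inv_eq_iff_eq_mul.1 e2
  · rintro ⟨e1, a, e2⟩
    refine ⟨e1, a, ?_⟩
    rw [e1, gm_gm_inv, e2, mul_inv_cancel_right]

theorem mem_inn (h : Good Q e f u) (x : SP Q) : R Q x ∈ Cfsg.Inn (Cfsg.POmega F ⇑Q) ↔
    x.1.right = 1 ∧ ∃ (a : Fˣ) (s : Cfsg.Omega F ⇑Q), x.1.left = scal a * ((s : Cfsg.isometryGroup F ⇑Q) : GL ι F) := by
  constructor
  · rintro ⟨y, hy⟩
    obtain ⟨s, rfl⟩ := QuotientGroup.mk_surjective y
    rw [conj_mk] at hy
    obtain ⟨h1, a, h2⟩ := (R_eq_iff h x (jI Q s.1)).1 hy.symm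
    exact ⟨h1, a, s, h2⟩
  · rintro ⟨h1, a, s, h2⟩
    refine ⟨QuotientGroup.mk s, ?_⟩
    rw [conj_mk]
    exact ((R_eq_iff h x (jI Q s.1)).2 ⟨h1, a, h2⟩).symm

end CfsgLib.RhoO27
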