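import Cfsg.Agent.LibRhoO27b

set_option autoImplicit false

/-! Groups of similarities acting on `PΩ(Q)`. -/

namespace CfsgLib.RhoO27

open Cfsg.Agent.H22 CfsgLib.Semi27 CfsgLib.AutO27 Matrix Module

section
variable {F : Type*} [Field F] {ι : Type} [Fintype ι] [DecidableEq ι]

/-- the similarity group -/
abbrev GOs (Q : QuadraticForm F (ι → F)) : Subgroup (GL ι F) := Cfsg.Geo.quadSimilarityGroup (F := F) ⇑Q

variable {Q : QuadraticForm F (ι → F)}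

theorem mem_GOs {g : GL ι F} : g ∈ GOs Q ↔ ∃ c : Fˣ, ∀ v, Q ((g : Matrix ι ι F) *ᵥ v) = c * Q v := Iff.rfl

theorem inl_mem_iff {g : GL ι F} : (SemidirectProduct.inl g : GamL ι F) ∈ SP Q ↔ g ∈ GOs Q := Iff.rfl

theorem scal_mem (u : Fˣ) : (scal u : GL ι F) ∈ GOs Q := ⟨u * u, fun v => by rw [scal_mulVec, qsmul, Units.val_mul]⟩

theorem iso_le : Cfsg.isometryGroup F ⇑Q ≤ GOs Q := fun g hg => ⟨1, fun v => by
  rw [Units.val_one, one_mul]; exact (mem_isometryGroup Q).1 hg v⟩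

theorem cjG_GOs (x : SP Q) {g : GL ι F} (hg : g ∈ GOs Q) : cjG x.1 g ∈ GOs Q := by
  rw [← inl_mem_iff]
  have : (SemidirectProduct.inl (cjG x.1 g) : GamL ι F) = x.1 * SemidirectProduct.inl g * x.1⁻¹ := by
    apply SemidirectProduct.ext
    · show x.1.left * gm x.1.right g * x.1.left⁻¹ = x.1.left * gm x.1.right g * gm (x.1.right * 1) (gm x.1.right⁻¹ x.1.left⁻¹)
      rw [mul_one, gm_gm_inv]
    · show (1 : F ≃+* F) = x.1.right * 1 * x.1.right⁻¹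
      rw [mul_one, mul_inv_cancel]
  rw [this]
  exact mul_mem (mul_mem x.2 (inl_mem_iff.2 hg)) (inv_mem x.2)

variable (Γ : Subgroup (GL ι F)) (hΓ : Γ ≤ GOs Q)

/-- the action of a group of similarities -/
noncomputable def rho : Γ →* MulAut (Cfsg.POmega F ⇑Q) :=
  (R Q).comp ((SemidirectProduct.inl.comp Γ.subtype).codRestrict (SP Q) fun g => inl_mem_iff.2 (hΓ g.2))

theorem rho_def (g : Γ) : rho Γ hΓ g = R Q ⟨SemidirectProduct.inl g.1, inl_mem_iff.2 (hΓ g.2)⟩ := rfl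

theorem R_inl {g : GL ι F} (hg : g ∈ Γ) (h : (SemidirectProduct.inl g : GamL ι F) ∈ SP Q) :
    R Q ⟨SemidirectProduct.inl g, h⟩ = rho Γ hΓ ⟨g, hg⟩ := rfl

theorem conj_rho (x : SP Q) (g g' : Γ) (h : (g' : GL ι F) = cjG x.1 g.1) : R Q x * rho Γ hΓ g * (R Q x)⁻¹ = rho Γ hΓ g' := by
  rw [rho_def, rho_def, ← map_inv, ← map_mul, ← map_mul]
  congr 1
  apply Subtype.ext
  apply SemidirectProduct.ext
  · show x.1.left * gm x.1.right g * gm (x.1.right * 1) (gm x.1.right⁻¹ x.1.left⁻¹) = (g' : GL ι F)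
    rw [mul_one, gm_gm_inv, h, cjG_apply]
  · show x.1.right * 1 * x.1.right⁻¹ = (1 : F ≃+* F)
    rw [mul_one, mul_inv_cancel]

/-- the standard field automorphism -/
noncomputable def ph {σ : F ≃+* F} (hσ : (⟨1, σ⟩ : GamL ι F) ∈ SP Q) : MulAut (Cfsg.POmega F ⇑Q) := R Q ⟨⟨1, σ⟩, hσ⟩

theorem cjG_std (σ : F ≃+* F) (g : GL ι F) : cjG (⟨1, σ⟩ : GamL ι F) g = gm σ g := by
  rw [cjG_apply]
  show 1 * gm σ g * 1⁻¹ = gm σ g
  simp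

theorem ph_mul_rho {σ : F ≃+* F} (hσ : (⟨1, σ⟩ : GamL ι F) ∈ SP Q) (hσΓ : ∀ g ∈ Γ, gm σ g ∈ Γ) (g : Γ) :
    ph hσ * rho Γ hΓ g = rho Γ hΓ ⟨gm σ g, hσΓ g g.2⟩ * ph hσ := by
  rw [← mul_inv_eq_iff_eq_mul]
  exact conj_rho Γ hΓ ⟨⟨1, σ⟩, hσ⟩ g _ (cjG_std σ g.1).symm

theorem act_std (σ : F ≃+* F) (v : ι → F) : act (⟨1, σ⟩ : GamL ι F) v = σ ∘ v := by
  show ((1 : GL ι F) : Matrix ι ι F) *ᵥ (σ ∘ v) = σ ∘ v
  rw [Units.val_one, one_mulVec]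

/-- the form has coefficients fixed by `σ` -/
theorem std_mem {σ : F ≃+* F} (h : ∀ v, Q (σ ∘ v) = σ (Q v)) : (⟨1, σ⟩ : GamL ι F) ∈ SP Q := by
  rw [mem_SP]
  refine ⟨1, fun v => ?_⟩
  rw [act_std, h]
  exact (one_mul _).symm

theorem ph_pow {σ : F ≃+* F} (hσ : (⟨1, σ⟩ : GamL ι F) ∈ SP Q) (k : ℕ) (hk : (⟨1, σ ^ k⟩ : GamL ι F) ∈ SP Q) : ph hσ ^ k = ph hk := by
  unfold ph
  rw [← map_pow]
  congr 1
  apply Subtype.ext
  have : ∀ k : ℕ, (⟨1, σ⟩ : GamL ι F) ^ k = ⟨1, σ ^ k⟩ := by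
    intro k
    have h1 : (⟨1, σ⟩ : GamL ι F) = SemidirectProduct.inr σ := rfl
    rw [h1, ← map_pow]; rfl
  exact this k

end

section
variable {F : Type*} [Field F] [Finite F] {ι : Type} [Fintype ι] [DecidableEq ι] {Q : QuadraticForm F (ι → F)}
  {e f : Fin 3 → (ι → F)} {u : ι → F} (Γ : Subgroup (GL ι F)) (hΓ : Γ ≤ GOs Q)

theorem rho_ker (h : Good Q e f u) (g : Γ) : rho Γ hΓ g = 1 ↔ ∃ a : Fˣ, (g : GL ι F) = scal a := by
  rw [rho_def, R_ker h]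
  exact ⟨fun h => h.2, fun h => ⟨rfl, h⟩⟩

theorem mul_mem_std {σ : F ≃+* F} (hσ : (⟨1, σ⟩ : GamL ι F) ∈ SP Q) (k : ℕ) : (⟨1, σ ^ k⟩ : GamL ι F) ∈ SP Q := by
  have h1 : (⟨1, σ⟩ : GamL ι F) = SemidirectProduct.inr σ := rfl
  have h2 : (⟨1, σ ^ k⟩ : GamL ι F) = SemidirectProduct.inr σ ^ k := by rw [← map_pow]; rfl
  rw [h2, ← h1]
  exact pow_mem hσ k

theorem ph_order (h : Good Q e f u) {σ : F ≃+* F} (hσ : (⟨1, σ⟩ : GamL ι F) ∈ SP Q) : orderOf (ph hσ) = orderOf σ := by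
  apply Nat.dvd_antisymm
  · rw [orderOf_dvd_iff_pow_eq_one, ph_pow hσ _ (mul_mem_std hσ _)]
    unfold ph
    rw [R_ker h]
    exact ⟨pow_orderOf_eq_one σ, 1, by rw [scal_one]⟩
  · rw [orderOf_dvd_iff_pow_eq_one]
    have h1 := pow_orderOf_eq_one (ph hσ)
    rw [ph_pow hσ _ (mul_mem_std hσ _)] at h1
    unfold ph at h1
    rw [R_ker h] at h1
    exact h1.1

theorem range_normal (h : Good Q e f u) (hN : ∀ (x : SP Q), ∀ g ∈ Γ, cjG x.1 g ∈ Γ) (α : MulAut (Cfsg.POmega F ⇑Q))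
    (β : MulAut (Cfsg.POmega F ⇑Q)) (hβ : β ∈ (rho Γ hΓ).range) : α * β * α⁻¹ ∈ (rho Γ hΓ).range := by
  obtain ⟨x, rfl⟩ := R_surj h α
  obtain ⟨g, rfl⟩ := hβ
  exact ⟨⟨cjG x.1 g.1, hN x g.1 g.2⟩, (conj_rho Γ hΓ x g _ rfl).symm⟩

theorem R_split (x : SP Q) (hσ : (⟨1, x.1.right⟩ : GamL ι F) ∈ SP Q) :
    ∃ h : x.1.left ∈ GOs Q, R Q x = rho (GOs Q) le_rfl ⟨x.1.left, h⟩ * ph hσ := by
  have h1 : (SemidirectProduct.inl x.1.left : GamL ι F) = x.1 * (⟨1, x.1.right⟩ : GamL ι F)⁻¹ := by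
    rw [eq_mul_inv_iff_mul_eq]
    apply SemidirectProduct.ext
    · show x.1.left * gm 1 1 = x.1.left
      rw [map_one, mul_one]
    · show 1 * x.1.right = x.1.right
      rw [one_mul]
  have h2 : (SemidirectProduct.inl x.1.left : GamL ι F) ∈ SP Q := by
    rw [h1]; exact mul_mem x.2 (inv_mem hσ)
  refine ⟨inl_mem_iff.1 h2, ?_⟩
  unfold ph
  rw [rho_def, ← map_mul]
  congr 1
  apply Subtype.ext
  show x.1 = SemidirectProduct.inl x.1.left * (⟨1, x.1.right⟩ : GamL ι F)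
  rw [h1, inv_mul_cancel_right]

theorem inn_le_rho : Cfsg.Inn (Cfsg.POmega F ⇑Q) ≤ (rho (GOs Q) le_rfl).range := by
  rintro _ ⟨y, rfl⟩
  obtain ⟨s, rfl⟩ := QuotientGroup.mk_surjective y
  refine ⟨⟨s.1, iso_le s.1.2⟩, ?_⟩
  exact (conj_mk s).symm

theorem sim_eq : Cfsg.pgoAut F ⇑Q = (rho (GOs Q) le_rfl).range := by
  apply le_antisymm
  · refine (Subgroup.closure_le _).2 ?_
    rintro β ⟨g, hg, h⟩
    exact ⟨⟨g, hg⟩, ((isInd_iff (x := SemidirectProduct.inl g) (inl_mem_iff.2 hg) β).1 h).symm⟩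
  · rintro _ ⟨g, rfl⟩
    exact Subgroup.subset_closure ⟨g.1, g.2, (isInd_iff (x := SemidirectProduct.inl g.1) (inl_mem_iff.2 g.2) _).2 rfl⟩

/-- automorphism groups generated by subgroups of similarities -/
theorem range_eq (P : GL ι F → Prop) (hP : ∀ g, g ∈ Γ ↔ g ∈ GOs Q ∧ P g) :
    Cfsg.autSubgroupOf (fun β : Cfsg.POmega F ⇑Q ≃* Cfsg.POmega F ⇑Q =>
      ∃ g : GL ι F, g ∈ Cfsg.Geo.quadSimilarityGroup (F := F) ⇑Q ∧ P g ∧ Cfsg.IsInducedBySemilinearPOmega ⇑Q g (RingEquiv.refl F) β) =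
      (rho Γ hΓ).range := by
  apply le_antisymm
  · refine (Subgroup.closure_le _).2 ?_
    rintro β ⟨g, hg, hPg, h⟩
    exact ⟨⟨g, (hP g).2 ⟨hg, hPg⟩⟩, ((isInd_iff (x := SemidirectProduct.inl g) (inl_mem_iff.2 hg) β).1 h).symm⟩
  · rintro _ ⟨g, rfl⟩
    have h1 := (hP g.1).1 g.2
    exact Subgroup.subset_closure ⟨g.1, h1.1, h1.2, (isInd_iff (x := SemidirectProduct.inl g.1) (inl_mem_iff.2 h1.1) _).2 rfl⟩

end

end CfsgLib.RhoO27
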