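import Cfsg.Agent.LibRhoO27c
import Cfsg.Agent.LibLift27

set_option autoImplicit false

/-! Odd-dimensional orthogonal groups: similarities, field automorphisms. -/

namespace CfsgLib.RhoO27

open Cfsg.Agent.H22 CfsgLib.Semi27 CfsgLib.AutO27 CfsgLib.H9027 CfsgLib.QForm27 CfsgLib.Desc27 CfsgLib.Lift27 CfsgLib.Spinor27 Matrix Module

section gen
variable {F : Type*} [Field F] {ι : Type} [Fintype ι] [DecidableEq ι] {Q : QuadraticForm F (ι → F)}

theorem det_sq (hQ : (QuadraticMap.polarBilin Q).Nondegenerate) {g : GL ι F} {c : F} (hg : ∀ v, Q ((g : Matrix ι ι F) *ᵥ v) = c * Q v) :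
    ((g : Matrix ι ι F).det) ^ 2 = c ^ (Fintype.card ι) := by
  have hp : ∀ x y, QuadraticMap.polar Q ((g : Matrix ι ι F) *ᵥ x) ((g : Matrix ι ι F) *ᵥ y) = c * QuadraticMap.polar Q x y := by
    intro x y
    unfold QuadraticMap.polar
    rw [← mulVec_add, hg, hg, hg]; ring
  let M : Matrix ι ι F := LinearMap.BilinForm.toMatrix' (QuadraticMap.polarBilin Q)
  have hM : ((g : Matrix ι ι F))ᵀ * M * (g : Matrix ι ι F) = c • M := by
    have h1 := LinearMap.BilinForm.toMatrix'_comp (QuadraticMap.polarBilin Q) (Matrix.toLin' (g : Matrix ι ι F)) (Matrix.toLin' (g : Matrix ι ι F))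
    rw [LinearMap.toMatrix'_toLin'] at h1
    rw [← h1]
    have h2 : LinearMap.BilinForm.comp (QuadraticMap.polarBilin Q) (Matrix.toLin' (g : Matrix ι ι F)) (Matrix.toLin' (g : Matrix ι ι F)) = c • QuadraticMap.polarBilin Q := by
      ext x y
      exact hp _ _
    rw [h2, map_smul]
  have hdM : M.det ≠ 0 := by
    have h1 : M.Nondegenerate := (LinearMap.BilinForm.nondegenerate_toMatrix'_iff).2 hQ
    exact h1.det_ne_zero
  have h3 := congrArg Matrix.det hM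
  rw [det_mul, det_mul, det_transpose, det_smul] at h3
  apply mul_right_cancel₀ hdM
  rw [← h3]; ring

end gen

section odd
variable {F : Type*} [Field F] {m : ℕ}

theorem qOdd_j {F₀ : Type*} [Field F₀] (j : F₀ →+* F) (x : Unit ⊕ (Fin m ⊕ Fin m) → F₀) : qOdd m F (j ∘ x) = j (qOdd m F₀ x) := by
  rw [coe_qOdd, coe_qOdd]
  unfold Cfsg.quadFormOdd
  simp [map_sum]

theorem std_odd (σ : F ≃+* F) : (⟨1, σ⟩ : GamL (Unit ⊕ (Fin m ⊕ Fin m)) F) ∈ SP (qOdd m F) := std_mem fun v => qOdd_j (σ : F →+* F) v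

theorem gm_GOs {ι : Type} [Fintype ι] [DecidableEq ι] {Q : QuadraticForm F (ι → F)} {σ : F ≃+* F} (hσ : (⟨1, σ⟩ : GamL ι F) ∈ SP Q) {g : GL ι F} (hg : g ∈ GOs Q) : gm σ g ∈ GOs Q := by
  rw [← cjG_std]
  exact cjG_GOs ⟨_, hσ⟩ hg

theorem hform_odd [Finite F] (h2 : (2 : F) ≠ 0) {σ : F ≃+* F} (g : GOs (qOdd m F)) (l : Fˣ) (k : GL (Unit ⊕ (Fin m ⊕ Fin m)) F)
    (hk : (g : GL (Unit ⊕ (Fin m ⊕ Fin m)) F) * gm σ k = scal l * k) :
    ∃ h : GL (Unit ⊕ (Fin m ⊕ Fin m)) F, gm σ h = h ∧ k * h ∈ GOs (qOdd m F) := by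
  haveI := Fintype.ofFinite (fixF σ)
  obtain ⟨μ, hμ⟩ := g.2
  obtain ⟨a, D₀, ha, hD₀, -, hk0⟩ := hform_gen (nondeg_qOdd m h2) (fun v => qOdd_j (σ : F →+* F) v) hμ hk
  have h20 : (2 : fixF σ) ≠ 0 := by
    intro h
    apply h2
    have := congrArg (Subtype.val) h
    exact this
  obtain ⟨d, φ, hd, hφ⟩ := odd_coord (m := m) h20 hD₀ (by simp; omega)
  obtain ⟨h0, hh0⟩ := gl_of_lin φ
  obtain ⟨h, hσh, hh⟩ := lift_gl h0
  refine ⟨h, hσh, ?_⟩
  have had : a * (d : F) ≠ 0 := mul_ne_zero ha (fun h => hd (Subtype.ext h))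
  refine ⟨Units.mk0 _ had, ?_⟩
  have hC : (qOdd m F).comp (Matrix.toLin' (((k * h : GL (Unit ⊕ (Fin m ⊕ Fin m)) F)) : Matrix _ _ F)) = (a * (d : F)) • qOdd m F := by
    apply qf_ext_rational (σ := σ)
    intro x
    rw [QuadraticMap.comp_apply, Matrix.toLin'_apply, Units.val_mul, ← mulVec_mulVec, hh, hk0, hh0, hφ, QuadraticMap.smul_apply]
    have h5 : qOdd m F (jv σ x) = ((qOdd m (fixF σ) x : fixF σ) : F) := qOdd_j (fixF σ).subtype x
    rw [h5]
    push_cast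
    rw [smul_eq_mul]; ring
  intro v
  exact congrArg (fun D : QuadraticForm F _ => D v) hC

theorem det_scal {ι : Type} [Fintype ι] [DecidableEq ι] (a : Fˣ) : (scal a : GL ι F).det = a ^ Fintype.card ι := by
  apply Units.ext
  show (Matrix.scalar ι (a : F)).det = _
  rw [Matrix.scalar_apply, Matrix.det_diagonal, Finset.prod_const, Finset.card_univ, Units.val_pow_eq_pow_val]

/-- the special orthogonal group -/
abbrev SOg {ι : Type} [Fintype ι] [DecidableEq ι] (Q : QuadraticForm F (ι → F)) : Subgroup (GL ι F) := Cfsg.specialIsometryGL F ⇑Q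

theorem mem_SOg {ι : Type} [Fintype ι] [DecidableEq ι] {Q : QuadraticForm F (ι → F)} {g : GL ι F} :
    g ∈ SOg Q ↔ g ∈ Cfsg.isometryGroup F ⇑Q ∧ g.det = 1 := Iff.rfl

theorem SO_le {ι : Type} [Fintype ι] [DecidableEq ι] {Q : QuadraticForm F (ι → F)} : SOg Q ≤ GOs Q := fun _ hg => iso_le hg.1

/-- odd dimension: similarities are scalar multiples of special isometries -/
theorem GO_eq (h2 : (2 : F) ≠ 0) {g : GL (Unit ⊕ (Fin m ⊕ Fin m)) F} (hg : g ∈ GOs (qOdd m F)) :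
    ∃ (a : Fˣ) (s : GL (Unit ⊕ (Fin m ⊕ Fin m)) F), s ∈ SOg (qOdd m F) ∧ g = scal a * s := by
  obtain ⟨c, hc⟩ := hg
  have hcard : Fintype.card (Unit ⊕ (Fin m ⊕ Fin m)) = 2 * m + 1 := by simp; omega
  have h1 : g.det ^ 2 = c ^ (2 * m + 1) := by
    have := det_sq (nondeg_qOdd m h2) hc
    rw [hcard] at this
    exact Units.ext this
  obtain ⟨t, ht⟩ : ∃ t : Fˣ, t = g.det * (c ^ m)⁻¹ := ⟨_, rfl⟩
  have ht2 : t ^ 2 = c := by
    rw [ht, mul_pow, h1, inv_pow, pow_succ, ← pow_mul, mul_comm m 2]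
    rw [mul_comm (c ^ (2 * m)) c, mul_inv_cancel_right]
  have hs : ∀ u : Fˣ, u ^ 2 = c → scal u⁻¹ * g ∈ Cfsg.isometryGroup F ⇑(qOdd m F) := by
    intro u hu
    rw [mem_isometryGroup]
    intro x
    rw [scal_mul_mulVec, qsmul]
    have h3 : qOdd m F ((g : Matrix _ _ F) *ᵥ x) = c * qOdd m F x := hc x
    rw [h3, ← mul_assoc, ← hu]
    have := u.ne_zero
    rw [Units.val_inv_eq_inv_val, Units.val_pow_eq_pow_val]
    field_simp
  have hdet : ∀ u : Fˣ, (scal u⁻¹ * g : GL (Unit ⊕ (Fin m ⊕ Fin m)) F).det = (u⁻¹) ^ (2 * m + 1) * g.det := by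
    intro u
    rw [map_mul, det_scal, hcard]
  have hg' : g.det = t ^ (2 * m + 1) := by
    rw [pow_succ', pow_mul, ht2, ht, inv_mul_cancel_right]
  refine ⟨t, scal t⁻¹ * g, ⟨hs t ht2, ?_⟩, ?_⟩
  · show (scal t⁻¹ * g : GL (Unit ⊕ (Fin m ⊕ Fin m)) F).det = 1
    rw [hdet, hg', inv_pow, inv_mul_cancel]
  · rw [← mul_assoc, ← map_mul, mul_inv_cancel, map_one, one_mul]

end odd

end CfsgLib.RhoO27
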