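import Cfsg.Agent.LibRhoOdd27

set_option autoImplicit false

/-! Field automorphisms of odd-dimensional orthogonal groups. -/

namespace CfsgLib.RhoO27

open Cfsg.Agent.H22 CfsgLib.Semi27 CfsgLib.AutO27 CfsgLib.H9027 CfsgLib.QForm27 CfsgLib.Desc27 CfsgLib.Lift27 CfsgLib.Spinor27 Matrix Module

section gen
variable {F : Type*} [Field F] [Finite F] {ι : Type} [Fintype ι] [DecidableEq ι] {Q : QuadraticForm F (ι → F)}
  {e f : Fin 3 → (ι → F)} {u : ι → F}

theorem ker_scalars (Γ : Subgroup (GL ι F)) (hΓ : Γ ≤ GOs Q) (h : Good Q e f u) : (rho Γ hΓ).ker = (Cfsg.Geo.scalars ι F).subgroupOf Γ := by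
  ext g
  rw [MonoidHom.mem_ker, Subgroup.mem_subgroupOf, rho_ker Γ hΓ h]
  constructor
  · rintro ⟨a, ha⟩
    exact ⟨a, ha.symm⟩
  · rintro ⟨a, ha⟩
    exact ⟨a, ha.symm⟩

theorem range_equiv (Γ : Subgroup (GL ι F)) (hΓ : Γ ≤ GOs Q) (h : Good Q e f u) : Nonempty (↥(rho Γ hΓ).range ≃* Cfsg.projQuot Γ) :=
  ⟨(QuotientGroup.quotientKerEquivRange (rho Γ hΓ)).symm.trans (QuotientGroup.quotientMulEquivOfEq (ker_scalars Γ hΓ h))⟩

/-- field automorphism classes -/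
theorem field_class (h : Good Q e f u) (hstd : ∀ σ : F ≃+* F, (⟨1, σ⟩ : GamL ι F) ∈ SP Q) (x : MulAut (Cfsg.POmega F ⇑Q))
    (hx : ∃ (α φ : MulAut (Cfsg.POmega F ⇑Q)) (σ : F ≃+* F), σ ≠ RingEquiv.refl F ∧ Cfsg.IsFieldAutPOmegaOf ⇑Q σ φ ∧ α * x * α⁻¹ = φ)
    {r : ℕ} (hxr : orderOf x = r) : ∃ (α : MulAut (Cfsg.POmega F ⇑Q)) (σ : F ≃+* F), orderOf σ = r ∧ α * x * α⁻¹ = ph (hstd σ) := by
  obtain ⟨α, φ, σ, -, hφ, hαx⟩ := hx
  rw [isStd_iff (hstd σ)] at hφ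
  refine ⟨α, σ, ?_, hαx.trans hφ⟩
  rw [← ph_order h (hstd σ), ← hxr]
  unfold ph
  rw [← hφ, ← hαx]
  exact ((MulAut.conj α).orderOf_eq x)

end gen

section sq
variable {F : Type*} [Field F] [Fintype F]

theorem squares_of_order_two (h2 : (2 : F) ≠ 0) {σ : F ≃+* F} (ho : orderOf σ = 2) (a : fixF σ) : IsSquare (a : F) := by
  classical
  by_cases ha : a = 0
  · subst ha; exact ⟨0, by simp⟩
  have hchar : ringChar F ≠ 2 := by
    intro h
    apply h2
    have := ringChar.spec F 2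
    rw [h] at this
    exact_mod_cast this.2 dvd_rfl
  have ha' : (a : F) ≠ 0 := fun h => ha (Subtype.ext h)
  rw [FiniteField.isSquare_iff hchar ha']
  have hc := card_fixF σ
  rw [ho] at hc
  letI : Fintype (fixF σ) := Fintype.ofFinite _
  have hc' : Fintype.card F = Fintype.card (fixF σ) ^ 2 := by
    rw [← Nat.card_eq_fintype_card, hc, Nat.card_eq_fintype_card]
  have hodd : Odd (Fintype.card F) := Nat.odd_iff.2 (FiniteField.odd_card_of_char_ne_two hchar)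
  rw [hc'] at hodd
  have hodd' : Odd (Fintype.card (fixF σ)) := by
    rcases Nat.even_or_odd (Fintype.card (fixF σ)) with h | h
    · exact absurd (h.pow_of_ne_zero (by norm_num)) (Nat.not_even_iff_odd.2 hodd)
    · exact h
  obtain ⟨t, ht⟩ := hodd'
  have e1 : Fintype.card F / 2 = (Fintype.card (fixF σ) - 1) * (t + 1) := by
    rw [hc', ht]
    have : (2 * t + 1) ^ 2 = 2 * ((2 * t) * (t + 1)) + 1 := by ring
    rw [this, show 2 * t + 1 - 1 = 2 * t by omega]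
    generalize 2 * t * (t + 1) = z
    omega
  have h3 : a ^ (Fintype.card (fixF σ) - 1) = 1 := FiniteField.pow_card_sub_one_eq_one a ha
  have h4 : (a : F) ^ (Fintype.card (fixF σ) - 1) = 1 := by
    have := congrArg (Subtype.val) h3
    exact_mod_cast this
  rw [e1, pow_mul, h4, one_pow]

theorem square_of_odd_order {σ : F ≃+* F} {r : ℕ} (ho : orderOf σ = r) (hr : Odd r) (a : fixF σ) (h : IsSquare (a : F)) : IsSquare a := by
  obtain ⟨b, hb⟩ := h
  have h1 : (σ b) * (σ b) = b * b := by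
    rw [← map_mul, ← hb]
    exact a.2
  rcases mul_self_eq_mul_self_iff.1 h1 with h3 | h3
  · exact ⟨⟨b, h3⟩, Subtype.ext hb⟩
  · have h4 : ∀ k : ℕ, (σ ^ k) b = (-1) ^ k * b := by
      intro k
      induction k with
      | zero => simp
      | succ k ih =>
        rw [pow_succ']
        show σ ((σ ^ k) b) = _
        rw [ih, map_mul, h3, map_pow, map_neg, map_one, pow_succ]; ring
    have h5 := h4 r
    rw [hr.neg_one_pow, ← ho, pow_orderOf_eq_one] at h5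
    have h6 : b = -b := by
      have : (1 : F ≃+* F) b = b := rfl
      rw [this] at h5
      rw [neg_one_mul] at h5
      exact h5
    exact ⟨⟨b, by rw [mem_fixF, h3, ← h6]⟩, Subtype.ext hb⟩

end sq

section odd
variable {F : Type*} [Field F] [Fintype F] {m : ℕ}

local notation "ι" => (Unit ⊕ (Fin m ⊕ Fin m))

theorem frOdd (hm : 1 ≤ m) : 2 ≤ finrank F (Unit ⊕ (Fin m ⊕ Fin m) → F) := by simp; omega

/-- spinor norm on `SO` -/
noncomputable def dOdd (h2 : (2 : F) ≠ 0) (hm : 1 ≤ m) : SOg (qOdd m F) →* ℤˣ :=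
  (spinM h2 (nondeg_qOdd m h2) (frOdd hm)).comp (Subgroup.inclusion (fun _ hg => hg.1 : SOg (qOdd m F) ≤ Cfsg.isometryGroup F ⇑(qOdd m F)))

theorem dOdd_apply (h2 : (2 : F) ≠ 0) (hm : 1 ≤ m) (g : SOg (qOdd m F)) :
    dOdd h2 hm g = spinM h2 (nondeg_qOdd m h2) (frOdd hm) ⟨g.1, g.2.1⟩ := rfl

theorem exists_neg (h2 : (2 : F) ≠ 0) (hm : 1 ≤ m) {F₀ : Type*} [Field F₀] [Fintype F₀] (h20 : (2 : F₀) ≠ 0) (j : F₀ →+* F)
    (a : F₀) (ha : a ≠ 0) (hsq : ¬ IsSquare (j a)) :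
    ∃ g₀ : Cfsg.isometryGroup F₀ ⇑(qOdd m F₀), ∃ h : Matrix.GeneralLinearGroup.map j (g₀ : GL ι F₀) ∈ SOg (qOdd m F), dOdd h2 hm ⟨_, h⟩ = -1 := by
  obtain ⟨v1, hv1⟩ := exists_norm_odd h20 (nondeg_qOdd m h20) (frOdd (F := F₀) hm) 1
  obtain ⟨v2, hv2⟩ := exists_norm_odd h20 (nondeg_qOdd m h20) (frOdd (F := F₀) hm) a
  have hv1' : qOdd m F₀ v1 ≠ 0 := by rw [hv1]; exact one_ne_zero
  have hv2' : qOdd m F₀ v2 ≠ 0 := by rw [hv2]; exact ha
  have w1 : qOdd m F (j ∘ v1) ≠ 0 := by rw [qOdd_j, hv1, map_one]; exact one_ne_zero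
  have w2 : qOdd m F (j ∘ v2) ≠ 0 := by rw [qOdd_j, hv2]; exact (map_ne_zero_iff j j.injective).2 ha
  have hl : liftI j (qOdd_j j) (rfM (qOdd m F₀) v1 hv1' * rfM (qOdd m F₀) v2 hv2') = rfM (qOdd m F) (j ∘ v1) w1 * rfM (qOdd m F) (j ∘ v2) w2 := by
    rw [map_mul, liftI_rfM, liftI_rfM]
  refine ⟨rfM _ v1 hv1' * rfM _ v2 hv2', ?_, ?_⟩
  · rw [← liftI_coe j (qOdd_j j), hl, mem_SOg]
    refine ⟨Subtype.mem _, ?_⟩
    rw [Subgroup.coe_mul, map_mul, det_rfM, det_rfM]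
    simp
  · rw [dOdd_apply]
    have : (⟨Matrix.GeneralLinearGroup.map j ((rfM (qOdd m F₀) v1 hv1' * rfM (qOdd m F₀) v2 hv2' : Cfsg.isometryGroup F₀ ⇑(qOdd m F₀)) : GL ι F₀), lift_iso j (qOdd_j j) (Subtype.mem _)⟩ : Cfsg.isometryGroup F ⇑(qOdd m F)) =
      rfM (qOdd m F) (j ∘ v1) w1 * rfM (qOdd m F) (j ∘ v2) w2 := hl
    rw [this, map_mul, spinM_rfM, spinM_rfM, qOdd_j, qOdd_j, hv1, hv2, map_one, chi_one, one_mul, chi_eq_neg]
    exact hsq

theorem inn_iff_odd {e f : Fin 3 → (ι → F)} {u : ι → F} (hG : Good (qOdd m F) e f u) (h2 : (2 : F) ≠ 0) (hm : 1 ≤ m) (g : SOg (qOdd m F)) :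
    rho (SOg (qOdd m F)) SO_le g ∈ Cfsg.Inn (Cfsg.POmega F ⇑(qOdd m F)) ↔ dOdd h2 hm g = 1 := by
  rw [rho_def, mem_inn hG]
  have hcard : Fintype.card ι = 2 * m + 1 := by simp; omega
  constructor
  · rintro ⟨-, a, s, hs⟩
    have hs' : (g : GL ι F) = scal a * ((s : Cfsg.isometryGroup F ⇑(qOdd m F)) : GL ι F) := hs
    have hsd := (mem_omega_M h2 (nondeg_qOdd m h2) (frOdd hm) s.1).1 s.2
    have h1 : a ^ (2 * m + 1) = 1 := by
      have := congrArg Matrix.GeneralLinearGroup.det hs'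
      rw [map_mul, det_scal, hcard, hsd.1, mul_one, g.2.2] at this
      exact this.symm
    have h3 : a ^ 2 = 1 := by
      obtain ⟨w, hw⟩ := exists_norm_odd h2 (nondeg_qOdd m h2) (frOdd (F := F) hm) 1
      have e1 := (mem_isometryGroup (qOdd m F)).1 g.2.1 w
      rw [hs', scal_mul_mulVec, qsmul, (mem_isometryGroup (qOdd m F)).1 s.1.2, hw, mul_one] at e1
      apply Units.ext
      rw [Units.val_pow_eq_pow_val, pow_two, e1]; rfl
    have h4 : a = 1 := by rwa [pow_succ, pow_mul, h3, one_pow, one_mul] at h1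
    rw [h4, scal_one, one_mul] at hs'
    rw [dOdd_apply]
    have : (⟨g.1, g.2.1⟩ : Cfsg.isometryGroup F ⇑(qOdd m F)) = s.1 := Subtype.ext hs'
    rw [this]
    exact hsd.2
  · intro hd
    refine ⟨rfl, 1, ⟨⟨g.1, g.2.1⟩, (mem_omega_M h2 (nondeg_qOdd m h2) (frOdd hm) _).2 ⟨g.2.2, hd⟩⟩, ?_⟩
    rw [scal_one, one_mul]; rfl

theorem range_SO (h2 : (2 : F) ≠ 0) {e f : Fin 3 → (ι → F)} {u : ι → F} (hG : Good (qOdd m F) e f u) :
    (rho (SOg (qOdd m F)) SO_le).range = (rho (GOs (qOdd m F)) le_rfl).range := by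
  apply le_antisymm
  · rintro _ ⟨g, rfl⟩
    exact ⟨⟨g.1, SO_le g.2⟩, rfl⟩
  · rintro _ ⟨g, rfl⟩
    obtain ⟨a, s, hs, hg⟩ := GO_eq h2 g.2
    refine ⟨⟨s, hs⟩, ?_⟩
    rw [rho_def, rho_def, R_eq_iff hG]
    refine ⟨rfl, a⁻¹, ?_⟩
    show s = scal a⁻¹ * (g : GL ι F)
    rw [hg, ← mul_assoc, ← map_mul, inv_mul_cancel, map_one, one_mul]

theorem commute_odd {e f : Fin 3 → (ι → F)} {u : ι → F} (hG : Good (qOdd m F) e f u) (h2 : (2 : F) ≠ 0) (hm : 1 ≤ m) (σ : F ≃+* F) (c : SOg (qOdd m F)) :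
    rho (SOg (qOdd m F)) SO_le c * ph (std_odd σ) = ph (std_odd σ) * rho (SOg (qOdd m F)) SO_le c ↔ gm σ (c : GL ι F) = c := by
  have hcard : Fintype.card ι = 2 * m + 1 := by simp; omega
  have e0 : ph (std_odd σ) * rho (SOg (qOdd m F)) SO_le c = ph (std_odd σ) * rho (GOs (qOdd m F)) le_rfl ⟨c.1, SO_le c.2⟩ := rfl
  rw [e0, ph_mul_rho (GOs (qOdd m F)) le_rfl (std_odd σ) (fun g hg => gm_GOs (std_odd σ) hg), mul_left_inj, rho_def, rho_def, R_eq_iff hG]
  constructor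
  · rintro ⟨-, a, ha⟩
    have ha' : (c : GL ι F) = scal a * gm σ (c : GL ι F) := ha
    have h1 : a ^ (2 * m + 1) = 1 := by
      have := congrArg Matrix.GeneralLinearGroup.det ha'
      have h5 : (gm σ (c : GL ι F)).det = 1 := by
        have := Matrix.GeneralLinearGroup.map_det (σ : F →+* F) (c : GL ι F)
        apply Units.ext
        have h6 : ((c : GL ι F) : Matrix ι ι F).det = 1 := congrArg Units.val c.2.2
        show (((c : GL ι F) : Matrix ι ι F).map σ).det = 1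
        have h7 := (σ : F →+* F).map_det ((c : GL ι F) : Matrix ι ι F)
        rw [h6, map_one] at h7
        exact h7.symm
      rw [map_mul, det_scal, hcard, h5, mul_one, c.2.2] at this
      exact this.symm
    have hiso : gm σ (c : GL ι F) ∈ Cfsg.isometryGroup F ⇑(qOdd m F) := by
      have := cjG_mem (Q := qOdd m F) ⟨_, std_odd σ⟩ c.2.1
      rwa [cjG_std] at this
    have h3 : a ^ 2 = 1 := by
      obtain ⟨w, hw⟩ := exists_norm_odd h2 (nondeg_qOdd m h2) (frOdd (F := F) hm) 1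
      have e1 := (mem_isometryGroup (qOdd m F)).1 c.2.1 w
      rw [ha', scal_mul_mulVec, qsmul, (mem_isometryGroup (qOdd m F)).1 hiso, hw, mul_one] at e1
      apply Units.ext
      rw [Units.val_pow_eq_pow_val, pow_two, e1]; rfl
    have h4 : a = 1 := by rwa [pow_succ, pow_mul, h3, one_pow, one_mul] at h1
    rw [h4, scal_one, one_mul] at ha'
    exact ha'.symm
  · intro hc
    refine ⟨rfl, 1, ?_⟩
    rw [scal_one, one_mul]
    exact hc.symm

/-- the splitting numbers -/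
theorem split_odd {e f : Fin 3 → (ι → F)} {u : ι → F} (hG : Good (qOdd m F) e f u) (h2 : (2 : F) ≠ 0) (hm : 1 ≤ m) {σ : F ≃+* F} {r : ℕ} (ho : orderOf σ = r) :
    (Odd r → Cfsg.splitClassCount (rho (GOs (qOdd m F)) le_rfl).range (Cfsg.Inn (Cfsg.POmega F ⇑(qOdd m F))) (ph (std_odd σ)) = 1) ∧
    (r = 2 → Cfsg.splitClassCount (rho (GOs (qOdd m F)) le_rfl).range (Cfsg.Inn (Cfsg.POmega F ⇑(qOdd m F))) (ph (std_odd σ)) = 2) := by
  letI : Fintype (fixF σ) := Fintype.ofFinite _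
  have h20 : (2 : fixF σ) ≠ 0 := by
    intro h
    apply h2
    exact congrArg (Subtype.val) h
  obtain ⟨ν, hν⟩ : ∃ ν : F, ¬ IsSquare ν := FiniteField.exists_nonsquare (ringChar_ne_two h2)
  have hν0 : ν ≠ 0 := by rintro rfl; exact hν IsSquare.zero
  have hd : Function.Surjective (dOdd (m := m) h2 hm) := by
    intro z
    rcases Int.units_eq_one_or z with rfl | rfl
    · exact ⟨1, map_one _⟩
    · obtain ⟨g₀, h, hh⟩ := exists_neg (m := m) h2 hm h2 (RingHom.id F) ν hν0 hν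
      exact ⟨_, hh⟩
  have hT : ∀ g, rho (SOg (qOdd m F)) SO_le g ∈ Cfsg.Inn (Cfsg.POmega F ⇑(qOdd m F)) ↔ dOdd h2 hm g ∈ (⊥ : Subgroup ℤˣ) := by
    intro g
    rw [inn_iff_odd hG h2 hm, Subgroup.mem_bot]
  have hTρ : Cfsg.Inn (Cfsg.POmega F ⇑(qOdd m F)) ≤ (rho (SOg (qOdd m F)) SO_le).range := by
    rw [range_SO h2 hG]; exact inn_le_rho
  rw [← range_SO h2 hG]
  refine ⟨fun hr => ?_, fun hr => ?_⟩
  · rw [CfsgLib.Split27.splitCount_eq (rho (SOg (qOdd m F)) SO_le) _ _ (dOdd h2 hm) hd ⊥ hT hTρ ⊤, Subgroup.index_top]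
    intro z
    refine ⟨fun _ => ?_, fun _ => trivial⟩
    rcases Int.units_eq_one_or z with rfl | rfl
    · exact ⟨1, by simp, 1, one_mem _, by simp⟩
    · obtain ⟨a, ha⟩ : ∃ a : fixF σ, ¬ IsSquare a := FiniteField.exists_nonsquare (ringChar_ne_two h20)
      have ha0 : a ≠ 0 := by rintro rfl; exact ha IsSquare.zero
      obtain ⟨g₀, h, hh⟩ := exists_neg (m := m) h2 hm h20 (fixF σ).subtype a ha0 (fun h => ha (square_of_odd_order ho hr a h))
      refine ⟨⟨_, h⟩, ?_, 1, one_mem _, by rw [hh, mul_one]⟩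
      rw [commute_odd hG h2 hm]
      apply Units.ext
      ext i k
      exact (((g₀ : GL ι (fixF σ)) : Matrix ι ι (fixF σ)) i k).2
  · rw [CfsgLib.Split27.splitCount_eq (rho (SOg (qOdd m F)) SO_le) _ _ (dOdd h2 hm) hd ⊥ hT hTρ ⊥, Subgroup.index_bot]
    · simp [Nat.card_eq_fintype_card]
    · intro z
      rw [Subgroup.mem_bot]
      constructor
      · rintro rfl
        exact ⟨1, by simp, 1, one_mem _, by simp⟩
      · rintro ⟨c, hc, t, ht, rfl⟩
        rw [Subgroup.mem_bot] at ht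
        rw [ht, mul_one]
        rw [commute_odd hG h2 hm] at hc
        obtain ⟨g₀, hg₀⟩ := fixed_gl hc
        have hsim : g₀ ∈ Cfsg.isometryGroup (fixF σ) ⇑(qOdd m (fixF σ)) := by
          rw [mem_isometryGroup]
          intro x
          apply Subtype.ext
          have e1 := (mem_isometryGroup (qOdd m F)).1 c.2.1 ((fixF σ).subtype ∘ x)
          rw [← hg₀] at e1
          have e2 : ((Matrix.GeneralLinearGroup.map (fixF σ).subtype g₀ : GL ι F) : Matrix ι ι F) *ᵥ ((fixF σ).subtype ∘ x) =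
            (fixF σ).subtype ∘ ((g₀ : Matrix ι ι (fixF σ)) *ᵥ x) := map_mulVec' _ _ _
          rw [e2, qOdd_j, qOdd_j] at e1
          exact e1
        have h5 := spin_lift_trivial (fixF σ).subtype (qOdd_j (fixF σ).subtype) h2 (nondeg_qOdd m h2) (frOdd hm) (nondeg_qOdd m h20)
          (exists_ne_one_of_odd h20) (fun a => squares_of_order_two h2 (ho.trans hr) a) ⟨g₀, hsim⟩
        rw [dOdd_apply, ← h5]
        congr 1
        apply Subtype.ext
        exact hg₀.symm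

end odd

end CfsgLib.RhoO27
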