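import Mathlib
import Cfsg.Agent.LibThompTr

set_option autoImplicit false

/-! No simple group has Sylow 2-subgroups `Z₂ × D₈`. -/

namespace CfsgLib.S3309

open Subgroup

abbrev H0 := Multiplicative (ZMod 2) × DihedralGroup 4

/-- the homomorphisms to `Z₂` -/
def lam (α β : ZMod 2) : H0 →* Multiplicative (ZMod 2) where
  toFun h := Multiplicative.ofAdd (Multiplicative.toAdd h.1 +
    (match h.2 with
      | .r j => (j.val : ZMod 2) * (α + β)
      | .sr j => α + (j.val : ZMod 2) * (α + β)))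
  map_one' := by revert α β; decide
  map_mul' := by revert α β; decide

def z : H0 := (1, DihedralGroup.r 2)
def z0 : H0 := (Multiplicative.ofAdd 1, 1)
def a1 : H0 := (1, DihedralGroup.sr 0)
def a1' : H0 := (Multiplicative.ofAdd 1, DihedralGroup.sr 0)
def a2 : H0 := (1, DihedralGroup.sr 1)
def a2' : H0 := (Multiplicative.ofAdd 1, DihedralGroup.sr 1)

theorem comm_eq : ∀ a b : H0, a * b * a⁻¹ * b⁻¹ = 1 ∨ a * b * a⁻¹ * b⁻¹ = z := by decide

theorem central_iff : ∀ h : H0, (∀ k : H0, h * k = k * h) → h = 1 ∨ h = z ∨ h = z0 ∨ h = z0 * z := by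
  decide

theorem noncentral : ∀ h : H0, h ^ 2 = 1 → h = 1 ∨ h = z ∨ h = z0 ∨ h = z0 * z ∨
    ∃ k : H0, k * h * k⁻¹ = a1 ∨ k * h * k⁻¹ = a1' ∨ k * h * k⁻¹ = a2 ∨ k * h * k⁻¹ = a2' := by
  decide

theorem lam_surj (α β : ZMod 2) : (lam α β).ker.index = 2 := by
  rw [index_ker]
  have h1 : (lam α β).range = ⊤ := by
    rw [MonoidHom.range_eq_top]
    intro x
    have h2 : ∀ x : Multiplicative (ZMod 2), x = 1 ∨ x = Multiplicative.ofAdd 1 := by decide
    rcases h2 x with rfl | rfl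
    · exact ⟨1, map_one _⟩
    · refine ⟨z0, ?_⟩
      revert α β
      decide
  rw [h1, Subgroup.card_top, Nat.card_eq_fintype_card]
  rfl

theorem lam_z0 : ∀ α β : ZMod 2, lam α β z0 ≠ 1 ∧ lam α β (z0 * z) ≠ 1 := by decide

theorem lam_a : ∀ α β : ZMod 2, (lam α β a1 = 1 → α = 0) ∧ (lam α β a1' = 1 → α = 1) ∧
    (lam α β a2 = 1 → β = 0) ∧ (lam α β a2' = 1 → β = 1) := by decide

/-- members of `ker λ` -/
theorem ker_mem (α β : ZMod 2) (h : H0) (hl : lam α β h = 1) (h2 : h ^ 2 = 1) :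
    h = 1 ∨ h = z ∨
    ∃ k : H0, (k * h * k⁻¹ = a1 ∧ α = 0) ∨ (k * h * k⁻¹ = a1' ∧ α = 1) ∨
      (k * h * k⁻¹ = a2 ∧ β = 0) ∨ (k * h * k⁻¹ = a2' ∧ β = 1) := by
  rcases noncentral h h2 with rfl | rfl | rfl | rfl | ⟨k, hk⟩
  · exact Or.inl rfl
  · exact Or.inr (Or.inl rfl)
  · exact absurd hl (lam_z0 α β).1
  · exact absurd hl (lam_z0 α β).2
  · right; right
    refine ⟨k, ?_⟩
    have h3 : lam α β (k * h * k⁻¹) = 1 := by
      rw [map_mul, map_mul, hl, mul_one, map_inv, mul_inv_cancel]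
    rcases hk with hk | hk | hk | hk
    · exact Or.inl ⟨hk, (lam_a α β).1 (hk ▸ h3)⟩
    · exact Or.inr (Or.inl ⟨hk, (lam_a α β).2.1 (hk ▸ h3)⟩)
    · exact Or.inr (Or.inr (Or.inl ⟨hk, (lam_a α β).2.2.1 (hk ▸ h3)⟩))
    · exact Or.inr (Or.inr (Or.inr ⟨hk, (lam_a α β).2.2.2 (hk ▸ h3)⟩))

theorem a_mul_z : ∀ a : H0, (a = a1 ∨ a = a1' ∨ a = a2 ∨ a = a2') →
    (∃ k : H0, k * a * k⁻¹ = a * z) ∧ a * z = z * a ∧ a ^ 2 = 1 := by
  decide

theorem z0_ne : z0 ≠ z0 * z ∧ z ≠ 1 ∧ z0 ≠ 1 ∧ z ≠ z0 ∧ z ≠ z0 * z ∧ z0 ^ 2 = 1 ∧ z ^ 2 = 1 ∧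
    (z0 * z) ^ 2 = 1 ∧ z0 * z ≠ 1 := by decide

theorem z0_central : ∀ k : H0, z0 * k = k * z0 ∧ z * k = k * z := by decide

theorem z_eq : z = a1 * a2 * a1⁻¹ * a2⁻¹ := by decide
theorem z_mul_z : z * z = 1 := by decide
theorem h01' : (0 : ZMod 2) ≠ 1 := by decide
theorem h10' : (1 : ZMod 2) ≠ 0 := by decide

variable {G : Type*} [Group G] [Finite G]

theorem central_conj (S : Sylow 2 G) (φ : H0 →* G) (hφ : Function.Injective φ)
    (hr : φ.range = (S : Subgroup G)) (h h' : H0) (hc : ∀ k : H0, h * k = k * h)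
    (hc' : ∀ k : H0, h' * k = k * h') (hcj : IsConj (φ h) (φ h')) : h = h' := by
  haveI : Fact (Nat.Prime 2) := ⟨Nat.prime_two⟩
  obtain ⟨g, hg⟩ := isConj_iff.1 hcj
  have hcen : ∀ h : H0, (∀ k : H0, h * k = k * h) → φ h ∈ centralizer ((S : Subgroup G) : Set G) := by
    intro h hc
    rw [mem_centralizer_iff]
    intro s hs
    rw [SetLike.mem_coe, ← hr] at hs
    obtain ⟨k, rfl⟩ := hs
    rw [← map_mul, ← map_mul, hc k]
  obtain ⟨n, hn, hne⟩ := S.conj_eq_normalizer_conj_of_mem_centralizer (φ h) g⁻¹ (hcen h hc)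
    (by rw [inv_inv, hg]; exact hcen h' hc')
  rw [inv_inv, hg] at hne
  -- the induced automorphism
  have hψ : ∀ k : H0, ∃ l : H0, n⁻¹ * φ k * n = φ l := by
    intro k
    have h1 : φ k ∈ (S : Subgroup G) := hr ▸ ⟨k, rfl⟩
    have h2 : n⁻¹ * φ k * n ∈ (S : Subgroup G) := by
      have := (mem_normalizer_iff.1 (inv_mem hn) (φ k)).1 h1
      simpa using this
    rw [← hr] at h2
    obtain ⟨l, hl⟩ := h2
    exact ⟨l, hl.symm⟩
  choose ψ hψ using hψ
  have hmul : ∀ a b : H0, ψ (a * b) = ψ a * ψ b := by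
    intro a b
    apply hφ
    rw [← hψ, map_mul, map_mul, ← hψ, ← hψ]
    group
  have hinv : ∀ a : H0, ψ a⁻¹ = (ψ a)⁻¹ := by
    intro a
    apply hφ
    rw [← hψ, map_inv, map_inv, ← hψ]
    group
  have h1 : ψ 1 = 1 := by
    apply hφ
    rw [← hψ, map_one]
    group
  have hinj : ∀ a b : H0, ψ a = ψ b → a = b := by
    intro a b hab
    apply hφ
    have h2 := hψ a
    rw [hab, ← hψ b] at h2
    exact mul_left_cancel (mul_right_cancel h2)
  have hz : ψ z = z := by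
    have h2 : z = a1 * a2 * a1⁻¹ * a2⁻¹ := z_eq
    have h3 : ψ z = ψ a1 * ψ a2 * (ψ a1)⁻¹ * (ψ a2)⁻¹ := by
      conv_lhs => rw [h2]
      rw [hmul, hmul, hmul, hinv, hinv]
    rw [h3]
    rcases comm_eq (ψ a1) (ψ a2) with h4 | h4
    · exfalso
      rw [← h3] at h4
      exact z0_ne.2.1 (hinj _ _ (h4.trans h1.symm))
    · exact h4
  have hh : ψ h = h' := by
    apply hφ
    rw [← hψ, ← hne]
  by_contra hcon
  -- then `h, h' ∈ {z0, z0 z}` are swapped
  have hswap : ψ h' = h := by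
    rcases central_iff h hc with rfl | rfl | rfl | rfl
    · exact absurd (h1.symm.trans hh) hcon
    · exact absurd (hz.symm.trans hh) hcon
    · rcases central_iff h' hc' with rfl | rfl | rfl | rfl
      · exact absurd (hinj _ _ (hh.trans h1.symm)) z0_ne.2.2.1
      · exact absurd (hinj _ _ (hh.trans hz.symm)) z0_ne.2.2.2.1.symm
      · exact absurd rfl hcon
      · rw [hmul, hh, hz, mul_assoc]
        have : z * z = 1 := z_mul_z
        rw [this, mul_one]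
    · rcases central_iff h' hc' with rfl | rfl | rfl | rfl
      · exact absurd (hinj _ _ (hh.trans h1.symm)) z0_ne.2.2.2.2.2.2.2.2
      · exact absurd (hinj _ _ (hh.trans hz.symm)) z0_ne.2.2.2.2.1.symm
      · rw [hmul, hz] at hh
        have h2 : ψ z0 * z * z = z0 * z := by rw [hh]
        have : z * z = 1 := z_mul_z
        rw [mul_assoc, this, mul_one] at h2
        exact h2
      · exact absurd rfl hcon
  -- odd powers of `n` swap
  have hodd : ∀ m : ℕ, (n ^ (2 * m + 1))⁻¹ * φ h * n ^ (2 * m + 1) = φ h' ∧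
      (n ^ (2 * m + 1))⁻¹ * φ h' * n ^ (2 * m + 1) = φ h := by
    have e1 : n⁻¹ * φ h * n = φ h' := by rw [hψ, hh]
    have e2 : n⁻¹ * φ h' * n = φ h := by rw [hψ, hswap]
    intro m
    induction m with
    | zero => simpa using ⟨e1, e2⟩
    | succ m ih =>
      have e3 : n ^ (2 * (m + 1) + 1) = n ^ (2 * m + 1) * n * n := by
        rw [← pow_succ, ← pow_succ]; congr 1
      constructor
      · calc (n ^ (2 * (m + 1) + 1))⁻¹ * φ h * n ^ (2 * (m + 1) + 1)
            = n⁻¹ * (n⁻¹ * ((n ^ (2 * m + 1))⁻¹ * φ h * n ^ (2 * m + 1)) * n) * n := by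
              rw [e3]; group
          _ = φ h' := by rw [ih.1, e2, e1]
      · calc (n ^ (2 * (m + 1) + 1))⁻¹ * φ h' * n ^ (2 * (m + 1) + 1)
            = n⁻¹ * (n⁻¹ * ((n ^ (2 * m + 1))⁻¹ * φ h' * n ^ (2 * m + 1)) * n) * n := by
              rw [e3]; group
          _ = φ h := by rw [ih.2, e1, e2]
  obtain ⟨k, m, hm, hkm⟩ := Nat.exists_eq_two_pow_mul_odd (n := orderOf n) (orderOf_pos n).ne'
  obtain ⟨m', rfl⟩ := hm
  have h2p : (n ^ (2 * m' + 1)) ^ 2 ^ k = 1 := by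
    rw [← pow_mul, mul_comm, ← hkm, pow_orderOf_eq_one]
  have hmem : n ^ (2 * m' + 1) ∈ (S : Subgroup G) := by
    have h3 : IsPGroup 2 (Subgroup.zpowers (n ^ (2 * m' + 1))) := by
      rw [IsPGroup.iff_card]
      rw [Nat.card_zpowers]
      obtain ⟨i, -, hi⟩ := (Nat.dvd_prime_pow Nat.prime_two).1 (orderOf_dvd_of_pow_eq_one h2p)
      exact ⟨i, hi⟩
    have h4 := h3.inf_normalizer_sylow S
    have h5 : n ^ (2 * m' + 1) ∈ Subgroup.zpowers (n ^ (2 * m' + 1)) ⊓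
        normalizer (S : Set G) := mem_inf.2 ⟨mem_zpowers _, pow_mem hn _⟩
    rw [h4] at h5
    exact (mem_inf.1 h5).2
  have h6 := mem_centralizer_iff.1 (hcen h hc) _ hmem
  have h7 := (hodd m').1
  rw [mul_assoc, ← h6, inv_mul_cancel_left] at h7
  exact hcon (hφ h7)

theorem main (S : Sylow 2 G) (hS : Nonempty (↥(S : Subgroup G) ≃* H0))
    [IsSimpleGroup G] (hG : ¬ IsMulCommutative G) : False := by
  haveI : Fact (Nat.Prime 2) := ⟨Nat.prime_two⟩
  obtain ⟨e⟩ := hS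
  obtain ⟨φ, hφ'⟩ : ∃ φ : H0 →* G, φ = (S : Subgroup G).subtype.comp e.symm.toMonoidHom := ⟨_, rfl⟩
  have hφ : Function.Injective φ := by
    rw [hφ']
    exact (subtype_injective _).comp e.symm.injective
  have hr : φ.range = (S : Subgroup G) := by
    rw [hφ', MonoidHom.range_eq_map, ← Subgroup.map_map]
    have : (⊤ : Subgroup H0).map e.symm.toMonoidHom = ⊤ := by
      rw [← MonoidHom.range_eq_map, MonoidHom.range_eq_top]
      exact e.symm.surjective
    rw [this, ← MonoidHom.range_eq_map, range_subtype]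
  have hcc := central_conj S φ hφ hr
  have hcz : ∀ c : H0, (c = z0 ∨ c = z0 * z) → ∀ k : H0, c * k = k * c := by
    rintro c (rfl | rfl) k
    · exact (z0_central k).1
    · rw [mul_assoc, (z0_central k).2, ← mul_assoc, (z0_central k).1, mul_assoc]
  -- no subgroups of index two
  have hno : ∀ M : Subgroup G, M.Normal → M.index ≠ 2 := by
    intro M hM hi
    rcases hM.eq_bot_or_eq_top with h | h
    · rw [h, index_bot] at hi
      apply hG
      haveI : IsCyclic G := isCyclic_of_prime_card hi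
      letI := IsCyclic.commGroup (α := G)
      exact ⟨⟨fun a b => mul_comm a b⟩⟩
    · rw [h, index_top] at hi
      omega
  -- Thompson transfer
  have hthomp : ∀ c : H0, (c = z0 ∨ c = z0 * z) → ∀ α β : ZMod 2,
      ∃ h : H0, lam α β h = 1 ∧ IsConj (φ h) (φ c) := by
    intro c hc α β
    have hQi : ((lam α β).ker.map φ).relIndex (S : Subgroup G) = 2 := by
      rw [← hr, MonoidHom.range_eq_map, relIndex_map_map_of_injective _ _ hφ, relIndex_top_right,
        lam_surj]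
    have hQP : (lam α β).ker.map φ ≤ (S : Subgroup G) := by
      rw [← hr, MonoidHom.range_eq_map]
      exact map_mono le_top
    have hc2 : (φ c) ^ 2 = 1 := by
      rw [← map_pow]
      rcases hc with rfl | rfl
      · rw [z0_ne.2.2.2.2.2.1, map_one]
      · rw [z0_ne.2.2.2.2.2.2.2.1, map_one]
    rcases CfsgLib.ThompTr.thompson_transfer S _ hQP hQi (φ c) hc2 with ⟨M, hM, hi, -⟩ | ⟨g, hg⟩
    · exact absurd hi (hno M hM)
    · obtain ⟨h, hh, hhg⟩ := hg
      exact ⟨h, hh, (isConj_iff.2 ⟨g, hhg.symm⟩).symm⟩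
  have hconj : ∀ k h : H0, IsConj (φ h) (φ (k * h * k⁻¹)) := by
    intro k h
    rw [isConj_iff]
    exact ⟨φ k, by rw [map_mul, map_mul, map_inv]⟩
  have hsq : ∀ c h : H0, c ^ 2 = 1 → IsConj (φ h) (φ c) → h ^ 2 = 1 := by
    intro c h hc hcj
    obtain ⟨g, hg⟩ := isConj_iff.1 hcj
    apply hφ
    rw [map_one, map_pow]
    have h1 : (g * φ h * g⁻¹) ^ 2 = 1 := by rw [hg, ← map_pow, hc, map_one]
    rw [conj_pow] at h1
    have h2 : g * φ h ^ 2 = g := by
      have := mul_inv_eq_one.1 h1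
      exact this
    exact mul_eq_left.1 h2
  have hc2 : ∀ c : H0, (c = z0 ∨ c = z0 * z) → c ^ 2 = 1 := by
    rintro c (rfl | rfl)
    · exact z0_ne.2.2.2.2.2.1
    · exact z0_ne.2.2.2.2.2.2.2.1
  -- consequences for the classes
  have hcls : ∀ c : H0, (c = z0 ∨ c = z0 * z) → ∀ α β : ZMod 2,
      (IsConj (φ a1) (φ c) ∧ α = 0) ∨ (IsConj (φ a1') (φ c) ∧ α = 1) ∨
      (IsConj (φ a2) (φ c) ∧ β = 0) ∨ (IsConj (φ a2') (φ c) ∧ β = 1) := by
    intro c hc α β
    obtain ⟨h, hl, hcj⟩ := hthomp c hc α β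
    have h2 := hsq c h (hc2 c hc) hcj
    rcases ker_mem α β h hl h2 with rfl | rfl | ⟨k, hk⟩
    · exfalso
      have h3 := hcc 1 c (fun k => by rw [one_mul, mul_one]) (hcz c hc) hcj
      rcases hc with rfl | rfl
      · exact z0_ne.2.2.1 h3.symm
      · exact z0_ne.2.2.2.2.2.2.2.2 h3.symm
    · exfalso
      have h3 := hcc z c (fun k => (z0_central k).2) (hcz c hc) hcj
      rcases hc with rfl | rfl
      · exact z0_ne.2.2.2.1 h3
      · exact z0_ne.2.2.2.2.1 h3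
    · have h3 := (hconj k h).symm.trans hcj
      rcases hk with ⟨hk, hα⟩ | ⟨hk, hα⟩ | ⟨hk, hα⟩ | ⟨hk, hα⟩
      · rw [hk] at h3; exact Or.inl ⟨h3, hα⟩
      · rw [hk] at h3; exact Or.inr (Or.inl ⟨h3, hα⟩)
      · rw [hk] at h3; exact Or.inr (Or.inr (Or.inl ⟨h3, hα⟩))
      · rw [hk] at h3; exact Or.inr (Or.inr (Or.inr ⟨h3, hα⟩))
  have hdisj : ∀ a : H0, IsConj (φ a) (φ z0) → IsConj (φ a) (φ (z0 * z)) → False := by
    intro a h1 h2
    exact z0_ne.1 (hcc _ _ (hcz _ (Or.inl rfl)) (hcz _ (Or.inr rfl)) (h1.symm.trans h2))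
  have h01 : (0 : ZMod 2) ≠ 1 := h01'
  have h10 : (1 : ZMod 2) ≠ 0 := h10'
  have hpair : ∀ c : H0, (c = z0 ∨ c = z0 * z) →
      (IsConj (φ a1) (φ c) ∧ IsConj (φ a1') (φ c)) ∨
      (IsConj (φ a2) (φ c) ∧ IsConj (φ a2') (φ c)) := by
    intro c hc
    have q00 := hcls c hc 0 0
    have q01 := hcls c hc 0 1
    have q10 := hcls c hc 1 0
    have q11 := hcls c hc 1 1
    simp only [h01, h10, and_false, and_true, or_false, false_or] at q00 q01 q10 q11
    tauto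
  have hall : ((IsConj (φ a1) (φ z0) ∧ IsConj (φ a1') (φ z0)) ∧
      (IsConj (φ a2) (φ (z0 * z)) ∧ IsConj (φ a2') (φ (z0 * z)))) ∨
      ((IsConj (φ a2) (φ z0) ∧ IsConj (φ a2') (φ z0)) ∧
      (IsConj (φ a1) (φ (z0 * z)) ∧ IsConj (φ a1') (φ (z0 * z)))) := by
    rcases hpair z0 (Or.inl rfl) with h1 | h1
    · rcases hpair (z0 * z) (Or.inr rfl) with h2 | h2
      · exact (hdisj _ h1.1 h2.1).elim
      · exact Or.inl ⟨h1, h2⟩
    · rcases hpair (z0 * z) (Or.inr rfl) with h2 | h2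
      · exact Or.inr ⟨h1, h2⟩
      · exact (hdisj _ h1.1 h2.1).elim
  -- all noncentral involutions are fused to `z0` or `z0 z`
  have hfuse : ∀ a : H0, (a = a1 ∨ a = a1' ∨ a = a2 ∨ a = a2') →
      IsConj (φ a) (φ z0) ∨ IsConj (φ a) (φ (z0 * z)) := by
    rintro a (rfl | rfl | rfl | rfl) <;> tauto
  have hzz : ∀ h : H0, IsConj (φ z) (φ h) → h = z := by
    intro h hcj
    have h2 := hsq z h z0_ne.2.2.2.2.2.2.1 hcj.symm
    have hz1 : ¬ IsConj (φ z) (φ z0) := fun h3 =>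
      z0_ne.2.2.2.1 (hcc _ _ (fun k => (z0_central k).2) (hcz _ (Or.inl rfl)) h3)
    have hz2 : ¬ IsConj (φ z) (φ (z0 * z)) := fun h3 =>
      z0_ne.2.2.2.2.1 (hcc _ _ (fun k => (z0_central k).2) (hcz _ (Or.inr rfl)) h3)
    rcases noncentral h h2 with rfl | rfl | rfl | rfl | ⟨k, hk⟩
    · exact absurd (hcc _ _ (fun k => (z0_central k).2) (fun k => by rw [one_mul, mul_one]) hcj)
        z0_ne.2.1
    · rfl
    · exact absurd hcj hz1
    · exact absurd hcj hz2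
    · exfalso
      have h3 := hcj.trans (hconj k h)
      rcases hfuse _ hk with h4 | h4
      · exact hz1 (h3.trans h4)
      · exact hz2 (h3.trans h4)
  -- the contradiction
  obtain ⟨a, ha, hca⟩ : ∃ a : H0, (a = a1 ∨ a = a1' ∨ a = a2 ∨ a = a2') ∧
      IsConj (φ a) (φ z0) := by
    rcases hall with h | h
    · exact ⟨a1, Or.inl rfl, h.1.1⟩
    · exact ⟨a2, Or.inr (Or.inr (Or.inl rfl)), h.1.1⟩
  obtain ⟨⟨k, hk⟩, haz, ha2⟩ := a_mul_z a ha
  obtain ⟨g, hg⟩ := isConj_iff.1 hca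
  -- move `z` into `S`
  obtain ⟨C, hC⟩ : ∃ C, C = centralizer ({φ z0} : Set G) := ⟨_, rfl⟩
  have hSC : (S : Subgroup G) ≤ C := by
    intro s hs
    rw [← hr] at hs
    obtain ⟨k, rfl⟩ := hs
    rw [hC, mem_centralizer_iff]
    rintro _ rfl
    rw [← map_mul, ← map_mul, (z0_central k).1]
  have hzC : g * φ z * g⁻¹ ∈ C := by
    rw [hC, mem_centralizer_iff]
    rintro _ rfl
    have : φ a * φ z = φ z * φ a := by rw [← map_mul, ← map_mul, haz]
    rw [← hg]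
    calc g * φ a * g⁻¹ * (g * φ z * g⁻¹) = g * (φ a * φ z) * g⁻¹ := by group
      _ = g * φ z * g⁻¹ * (g * φ a * g⁻¹) := by rw [this]; group
  obtain ⟨c, hcC, hcS⟩ : ∃ c ∈ C, c * (g * φ z * g⁻¹) * c⁻¹ ∈ (S : Subgroup G) := by
    have hP : IsPGroup 2 (Subgroup.zpowers (⟨g * φ z * g⁻¹, hzC⟩ : C)) := by
      apply IsPGroup.of_card (n := 1)
      rw [Nat.card_zpowers, Subgroup.orderOf_mk, pow_one]
      apply orderOf_eq_prime
      · rw [conj_pow, ← map_pow, z0_ne.2.2.2.2.2.2.1, map_one, mul_one, mul_inv_cancel]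
      · intro h
        have : φ z = 1 := by
          have := mul_inv_eq_one.1 h
          exact mul_eq_left.1 this
        exact z0_ne.2.1 (hφ (this.trans (map_one φ).symm))
    obtain ⟨T, hT⟩ := hP.exists_le_sylow
    obtain ⟨c, hc⟩ := MulAction.exists_smul_eq C T (S.subtype hSC)
    refine ⟨c, c.2, ?_⟩
    have h1 : (⟨g * φ z * g⁻¹, hzC⟩ : C) ∈ (T : Subgroup C) := hT (mem_zpowers _)
    have h2 : c * ⟨g * φ z * g⁻¹, hzC⟩ * c⁻¹ ∈ ((c • T : Sylow 2 C) : Subgroup C) := by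
      rw [Sylow.coe_subgroup_smul]
      exact Subgroup.smul_mem_pointwise_smul _ (MulAut.conj c) _ h1
    rw [hc] at h2
    exact h2
  rw [← hr] at hcS
  obtain ⟨h, hh⟩ := hcS
  have h3 : h = z := by
    apply hzz
    rw [isConj_iff]
    exact ⟨c * g, by rw [hh]; group⟩
  rw [h3] at hh
  have h4 : c * (g * φ a * g⁻¹) * c⁻¹ = φ z0 := by
    rw [hg]
    rw [hC, mem_centralizer_iff] at hcC
    have := hcC (φ z0) rfl
    rw [← this, mul_inv_cancel_right]
  have h5 : IsConj (φ (a * z)) (φ (z0 * z)) := by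
    rw [isConj_iff]
    refine ⟨c * g, ?_⟩
    rw [map_mul, map_mul]
    calc c * g * (φ a * φ z) * (c * g)⁻¹
        = (c * (g * φ a * g⁻¹) * c⁻¹) * (c * (g * φ z * g⁻¹) * c⁻¹) := by group
      _ = φ z0 * φ z := by rw [h4, ← hh]
  have h6 : IsConj (φ a) (φ (a * z)) := by
    rw [← hk]; exact hconj k a
  exact hdisj a hca (h6.trans h5)

end CfsgLib.S3309
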