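import Mathlib
import Cfsg.Prelude

set_option autoImplicit false

/-! `3² : D₈` acting on `F₂`-modules. -/

namespace CfsgLib.S4407

open Subgroup

theorem add_self' {M : Type*} [AddCommGroup M] [Module (ZMod 2) M] (m : M) : m + m = 0 := by
  rw [← two_smul (ZMod 2) m]
  have : (2 : ZMod 2) = 0 := by decide
  rw [this, zero_smul]

theorem eq_of_add {M : Type*} [AddCommGroup M] [Module (ZMod 2) M] {m n : M} (h : m + n = 0) :
    m = n := by
  have h2 : m + n = n + n := by rw [h, add_self']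
  exact add_right_cancel h2

theorem invol_fixed {M : Type*} [AddCommGroup M] [Module (ZMod 2) M] (t : M →ₗ[ZMod 2] M)
    (ht : ∀ m, t (t m) = m) (w : M) (hw : w ≠ 0) : ∃ w' : M, w' ≠ 0 ∧ t w' = w' ∧
      (w' = w ∨ w' = w + t w) := by
  by_cases h : t w = w
  · exact ⟨w, hw, h, Or.inl rfl⟩
  · refine ⟨w + t w, ?_, ?_, Or.inr rfl⟩
    · intro h1
      exact h (eq_of_add h1).symm
    · rw [map_add, ht, add_comm]

abbrev T := ZMod 2 × ZMod 2 × ZMod 2 × ZMod 2

/-- the coordinate map -/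
def coord {M : Type*} [AddCommGroup M] [Module (ZMod 2) M] (v1 v2 v3 v4 : M) : T →ₗ[ZMod 2] M where
  toFun c := c.1 • v1 + c.2.1 • v2 + c.2.2.1 • v3 + c.2.2.2 • v4
  map_add' x y := by
    simp only [Prod.fst_add, Prod.snd_add, add_smul]
    abel
  map_smul' k x := by
    simp only [Prod.smul_fst, Prod.smul_snd, smul_eq_mul, mul_smul, smul_add, RingHom.id_apply]

theorem card_fix1 : Nat.card {c : T // (c.1 + c.2.1, c.2.1, c.2.2.1, c.2.2.2) = c ∧
    (c.1 + c.2.1, c.2.1, c.2.2.1 + c.2.2.2, c.2.2.2) = c} = 4 := by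
  rw [Nat.card_eq_fintype_card]
  decide

theorem card_fix2 : Nat.card {c : T // (c.2.2.1, c.2.2.2, c.1, c.2.1) = c ∧
    (c.1 + c.2.1, c.2.1, c.2.2.1 + c.2.2.2, c.2.2.2) = c} = 2 := by
  rw [Nat.card_eq_fintype_card]
  decide

theorem zmod2 (i : ZMod 2) : i = 0 ∨ i = 1 := by revert i; decide

theorem comb_eq_zero {M : Type*} [AddCommGroup M] [Module (ZMod 2) M] {v1 v2 : M} (h1 : v1 ≠ 0)
    (h2 : v2 ≠ 0) (h12 : v1 ≠ v2) {i j : ZMod 2} (h : i • v1 + j • v2 = 0) : i = 0 ∧ j = 0 := by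
  rcases zmod2 i with rfl | rfl <;> rcases zmod2 j with rfl | rfl
  · exact ⟨rfl, rfl⟩
  · exfalso; apply h2; simpa using h
  · exfalso; apply h1; simpa using h
  · exfalso; apply h12; exact eq_of_add (by simpa using h)

section
variable {S : Type*} [Group S] {M : Type*} [AddCommGroup M] [Module (ZMod 2) M]
  (ρ : Representation (ZMod 2) S M)

/-- the four basis vectors -/
theorem key (a b r s z : S) (hrr : r * r = z) (hzz : z * z = 1) (hs : s * s = 1)
    (hsr : s * r = r * (z * s)) (hzr : z * r = r * z) (hsz : s * z = z * s)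
    (har : a * r = r * (b * b)) (hbr : b * r = r * a) (hb3 : b * (b * b) = 1)
    (hab : a * b = b * a) (hsa : s * a = a * s) (hsb : s * b = b * (b * s))
    (haz : a * z = z * (a * a)) (hzb : z * b = b * (b * z))
    (hgen : ∀ N : Submodule (ZMod 2) M, (∀ m ∈ N, ρ a m ∈ N) → (∀ m ∈ N, ρ b m ∈ N) →
      (∀ m ∈ N, ρ r m ∈ N) → (∀ m ∈ N, ρ s m ∈ N) → N = ⊥ ∨ N = ⊤)
    (hCA : ∀ m : M, ρ a m = m → ρ b m = m → m = 0)
    (w₀ : M) (hw₀ : w₀ ≠ 0) (haw₀ : ρ a w₀ = w₀) :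
    Nat.card M = 16 ∧ Nat.card {m : M // ρ s m = m ∧ ρ z m = m} = 4 ∧
      Nat.card {m : M // ρ (s * r) m = m ∧ ρ z m = m} = 2 := by
  have mul : ∀ (g h : S) (m : M), ρ (g * h) m = ρ g (ρ h m) := by
    intro g h m
    rw [map_mul]; rfl
  have one : ∀ m : M, ρ 1 m = m := by
    intro m
    rw [map_one]; rfl
  have inj : ∀ (g : S) (m : M), ρ g m = 0 → m = 0 := by
    intro g m h
    have := congrArg (ρ g⁻¹) h
    rwa [← mul, inv_mul_cancel, one, map_zero] at this
  -- a good vector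
  obtain ⟨w, hw, haw, hsw, hzw⟩ : ∃ w : M, w ≠ 0 ∧ ρ a w = w ∧ ρ s w = w ∧ ρ z w = w := by
    obtain ⟨w₁, hw₁, hsw₁, he₁⟩ := invol_fixed (ρ s) (fun m => by rw [← mul, hs, one]) w₀ hw₀
    have haw₁ : ρ a w₁ = w₁ := by
      rcases he₁ with h | h
      · rw [h, haw₀]
      · rw [h, map_add, haw₀, ← mul, ← hsa, mul, haw₀]
    obtain ⟨w₂, hw₂, hzw₂, he₂⟩ := invol_fixed (ρ z) (fun m => by rw [← mul, hzz, one]) w₁ hw₁
    refine ⟨w₂, hw₂, ?_, ?_, hzw₂⟩
    · rcases he₂ with h | h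
      · rw [h, haw₁]
      · rw [h, map_add, haw₁, ← mul, haz, mul, mul, haw₁, haw₁]
    · rcases he₂ with h | h
      · rw [h, hsw₁]
      · rw [h, map_add, hsw₁, ← mul, hsz, mul, hsw₁]
  have hbbw : ρ b (ρ b w) = w + ρ b w := by
    have h1 : w + ρ b w + ρ b (ρ b w) = 0 := by
      apply hCA
      · rw [map_add, map_add, haw, ← mul a b w, hab, mul, haw, ← mul a b (ρ b w), hab, mul,
          ← mul a b w, hab, mul, haw]
      · rw [map_add, map_add]
        have h2 : ρ b (ρ b (ρ b w)) = w := by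
          rw [← mul b b w, ← mul b (b * b) w, hb3, one]
        rw [h2]; abel
    exact (eq_of_add h1).symm
  have hbw0 : ρ b w ≠ 0 := fun h => hw (inj b w h)
  have hwb : w ≠ ρ b w := fun h => hw (hCA w haw h.symm)
  obtain ⟨f, hf⟩ : ∃ f : T →ₗ[ZMod 2] M, f = coord w (ρ b w) (ρ r w) (ρ r (ρ b w)) := ⟨_, rfl⟩
  have hfc : ∀ i j k l : ZMod 2, f (i, j, k, l) = i • w + j • ρ b w + k • ρ r w +
      l • ρ r (ρ b w) := by
    intro i j k l
    rw [hf]; rfl
  have fa : ∀ i j k l : ZMod 2, ρ a (f (i, j, k, l)) = f (i, j, k + l, k) := by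
    intro i j k l
    rw [hfc, hfc, map_add, map_add, map_add, map_smul, map_smul, map_smul, map_smul, haw,
      ← mul a b w, hab, mul, haw, ← mul a r w, har, mul, mul, hbbw, ← mul a r (ρ b w), har, mul,
      mul, ← mul b b w, ← mul b (b * b) w, hb3, one, map_add]
    simp only [smul_add, add_smul]
    abel
  have fb : ∀ i j k l : ZMod 2, ρ b (f (i, j, k, l)) = f (j, i + j, k, l) := by
    intro i j k l
    rw [hfc, hfc, map_add, map_add, map_add, map_smul, map_smul, map_smul, map_smul, hbbw,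
      ← mul b r w, hbr, mul, haw, ← mul b r (ρ b w), hbr, mul, ← mul a b w, hab, mul, haw]
    simp only [smul_add, add_smul]
    abel
  have fr : ∀ i j k l : ZMod 2, ρ r (f (i, j, k, l)) = f (k + l, l, i, j) := by
    intro i j k l
    rw [hfc, hfc, map_add, map_add, map_add, map_smul, map_smul, map_smul, map_smul,
      ← mul r r w, hrr, hzw, ← mul r r (ρ b w), hrr, ← mul z b w, hzb, mul, mul, hzw, hbbw]
    simp only [smul_add, add_smul]
    abel
  have fs : ∀ i j k l : ZMod 2, ρ s (f (i, j, k, l)) = f (i + j, j, k, l) := by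
    intro i j k l
    have e1 : ρ s (ρ r w) = ρ r w := by
      rw [← mul, hsr, mul, mul, hsw, hzw]
    have e2 : ρ s (ρ r (ρ b w)) = ρ r (ρ b w) := by
      rw [← mul s r, hsr, mul, mul, ← mul s b w, hsb, mul, mul, hsw, hbbw, map_add, hzw,
        ← mul z b w, hzb, mul, mul, hzw, hbbw, ← add_assoc, add_self', zero_add]
    rw [hfc, hfc, map_add, map_add, map_add, map_smul, map_smul, map_smul, map_smul, hsw, e1, e2,
      ← mul s b w, hsb, mul, mul, hsw, hbbw]
    simp only [smul_add, add_smul]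
    abel
  have fz : ∀ i j k l : ZMod 2, ρ z (f (i, j, k, l)) = f (i + j, j, k + l, l) := by
    intro i j k l
    rw [← hrr, mul, fr, fr]
  have hinj : Function.Injective f := by
    rw [injective_iff_map_eq_zero]
    rintro ⟨i, j, k, l⟩ h
    rw [hfc] at h
    have h1 : i • w + j • ρ b w = k • ρ r w + l • ρ r (ρ b w) := by
      apply eq_of_add
      rw [← h]; abel
    have h2 : i • w + j • ρ b w = 0 := by
      apply hCA
      · rw [map_add, map_smul, map_smul, haw, ← mul a b w, hab, mul, haw]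
      · rw [h1, map_add, map_smul, map_smul, ← mul b r w, hbr, mul, haw, ← mul b r (ρ b w), hbr,
          mul, ← mul a b w, hab, mul, haw]
    have h3 : k • w + l • ρ b w = 0 := by
      apply inj r
      rw [map_add, map_smul, map_smul, ← h1, h2]
    obtain ⟨rfl, rfl⟩ := comb_eq_zero hw hbw0 hwb h2
    obtain ⟨rfl, rfl⟩ := comb_eq_zero hw hbw0 hwb h3
    rfl
  have hsurj : Function.Surjective f := by
    rw [← LinearMap.range_eq_top]
    have h1 := hgen (LinearMap.range f)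
      (by rintro _ ⟨⟨i, j, k, l⟩, rfl⟩; rw [fa]; exact ⟨_, rfl⟩)
      (by rintro _ ⟨⟨i, j, k, l⟩, rfl⟩; rw [fb]; exact ⟨_, rfl⟩)
      (by rintro _ ⟨⟨i, j, k, l⟩, rfl⟩; rw [fr]; exact ⟨_, rfl⟩)
      (by rintro _ ⟨⟨i, j, k, l⟩, rfl⟩; rw [fs]; exact ⟨_, rfl⟩)
    rcases h1 with h1 | h1
    · exfalso
      apply hw
      have h2 : w ∈ LinearMap.range f := ⟨(1, 0, 0, 0), by rw [hfc]; simp⟩
      rwa [h1, Submodule.mem_bot] at h2
    · exact h1
  let e : T ≃ M := Equiv.ofBijective f ⟨hinj, hsurj⟩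
  refine ⟨?_, ?_, ?_⟩
  · rw [← Nat.card_congr e, Nat.card_eq_fintype_card]
    decide
  · refine Eq.trans (Eq.symm ?_) card_fix1
    apply Nat.card_congr
    refine e.subtypeEquiv ?_
    rintro ⟨i, j, k, l⟩
    change _ ↔ ρ s (f (i, j, k, l)) = f (i, j, k, l) ∧ ρ z (f (i, j, k, l)) = f (i, j, k, l)
    rw [fs, fz, hinj.eq_iff, hinj.eq_iff]
  · refine Eq.trans (Eq.symm ?_) card_fix2
    apply Nat.card_congr
    refine e.subtypeEquiv ?_
    rintro ⟨i, j, k, l⟩
    change _ ↔ ρ (s * r) (f (i, j, k, l)) = f (i, j, k, l) ∧ ρ z (f (i, j, k, l)) = f (i, j, k, l)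
    rw [mul, fr, fs, fz, hinj.eq_iff, hinj.eq_iff]
    have e3 : k + l + l = k := by
      have : l + l = 0 := by revert l; decide
      rw [add_assoc, this, add_zero]
    rw [e3]

end


/-! ### the group -/

open DihedralGroup in
theorem d_gen : ∀ j : ZMod 4, ∀ d : DihedralGroup 4, ∃ l : Fin 2, ∃ k : Fin 4,
    d = (sr j) ^ (l : ℕ) * (r 1) ^ (k : ℕ) := by decide

open DihedralGroup in
theorem K_mul : ∀ j : ZMod 4, ∀ x y : DihedralGroup 4,
    (x = 1 ∨ x = r 2 ∨ x = sr j ∨ x = sr (j + 2)) → (y = 1 ∨ y = r 2 ∨ y = sr j ∨ y = sr (j + 2)) →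
    (x * y = 1 ∨ x * y = r 2 ∨ x * y = sr j ∨ x * y = sr (j + 2)) := by decide

open DihedralGroup in
theorem K_inv : ∀ j : ZMod 4, ∀ x : DihedralGroup 4,
    (x = 1 ∨ x = r 2 ∨ x = sr j ∨ x = sr (j + 2)) →
    (x⁻¹ = 1 ∨ x⁻¹ = r 2 ∨ x⁻¹ = sr j ∨ x⁻¹ = sr (j + 2)) := by decide

/-- the two Klein four subgroups -/
def K (j : ZMod 4) : Subgroup (DihedralGroup 4) where
  carrier := {x | x = 1 ∨ x = DihedralGroup.r 2 ∨ x = DihedralGroup.sr j ∨
    x = DihedralGroup.sr (j + 2)}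
  mul_mem' {x y} hx hy := K_mul j x y hx hy
  one_mem' := Or.inl rfl
  inv_mem' {x} hx := K_inv j x hx

theorem mem_K {j : ZMod 4} {x : DihedralGroup 4} : x ∈ K j ↔ (x = 1 ∨ x = DihedralGroup.r 2 ∨
    x = DihedralGroup.sr j ∨ x = DihedralGroup.sr (j + 2)) := Iff.rfl

theorem K_card' : ∀ j : ZMod 4, Fintype.card {x : DihedralGroup 4 // x = 1 ∨
    x = DihedralGroup.r 2 ∨ x = DihedralGroup.sr j ∨ x = DihedralGroup.sr (j + 2)} = 4 := by
  decide

theorem K_card (j : ZMod 4) : Nat.card (K j) = 4 := by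
  refine Eq.trans ?_ (K_card' j)
  rw [← Nat.card_eq_fintype_card]
  rfl

theorem d1 : ∀ j : ZMod 4, (DihedralGroup.sr j * DihedralGroup.sr j : DihedralGroup 4) = 1 := by
  decide

theorem d2 : ∀ j : ZMod 4, (DihedralGroup.sr j * DihedralGroup.r 2 : DihedralGroup 4) = 1 →
    False := by
  decide

theorem d3 : ∀ j : ZMod 4, (DihedralGroup.sr j * DihedralGroup.r 1 : DihedralGroup 4) =
    DihedralGroup.r 1 * (DihedralGroup.r 2 * DihedralGroup.sr j) := by
  decide

theorem d4 : ∀ j : ZMod 4, (DihedralGroup.sr j * DihedralGroup.r 2 : DihedralGroup 4) =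
    DihedralGroup.r 2 * DihedralGroup.sr j := by
  decide

theorem K_sq' : ∀ j : ZMod 4, ∀ x : DihedralGroup 4,
    (x = 1 ∨ x = DihedralGroup.r 2 ∨ x = DihedralGroup.sr j ∨ x = DihedralGroup.sr (j + 2)) →
    x ^ 2 = 1 := by decide

theorem sq_cases : ∀ x : DihedralGroup 4, x ^ 2 = 1 → x = 1 ∨ x = DihedralGroup.r 2 ∨
    ∃ i : ZMod 4, x = DihedralGroup.sr i := by decide

theorem sr_mul_cases : ∀ i k : ZMod 4, (DihedralGroup.sr i * DihedralGroup.sr k :
    DihedralGroup 4) ^ 2 = 1 → k = i ∨ k = i + 2 := by decide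

theorem class4 (B : Subgroup (DihedralGroup 4)) (hB : Nat.card B = 4) (h2 : ∀ b ∈ B, b ^ 2 = 1) :
    ∃ i, B = K i := by
  by_cases h : ∃ i, DihedralGroup.sr i ∈ B
  · obtain ⟨i, hi⟩ := h
    refine ⟨i, ?_⟩
    apply Subgroup.eq_of_le_of_card_ge
    · intro x hx
      rw [mem_K]
      rcases sq_cases x (h2 x hx) with h | h | ⟨k, rfl⟩
      · exact Or.inl h
      · exact Or.inr (Or.inl h)
      · rcases sr_mul_cases i k (h2 _ (B.mul_mem hi hx)) with rfl | rfl
        · exact Or.inr (Or.inr (Or.inl rfl))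
        · exact Or.inr (Or.inr (Or.inr rfl))
    · rw [hB, K_card]
  · exfalso
    push Not at h
    have h3 : (B : Set (DihedralGroup 4)) ⊆ {1, DihedralGroup.r 2} := by
      intro x hx
      rcases sq_cases x (h2 x hx) with h | h | ⟨k, rfl⟩
      · exact Or.inl h
      · exact Or.inr h
      · exact absurd hx (h k)
    have h4 : Nat.card B ≤ 2 := by
      calc Nat.card B = (B : Set (DihedralGroup 4)).ncard := rfl
        _ ≤ ({1, DihedralGroup.r 2} : Set (DihedralGroup 4)).ncard := Set.ncard_le_ncard h3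
        _ ≤ 2 := by
          refine (Set.ncard_insert_le _ _).trans ?_
          rw [Set.ncard_singleton]
    omega

theorem four_cases : ∀ i j : ZMod 4, i = j ∨ i = j + 2 ∨ i = j + 1 ∨ i = j + 1 + 2 := by decide

theorem K_add2 (j : ZMod 4) : K (j + 2) = K j := by
  ext x
  rw [mem_K, mem_K]
  have : j + 2 + 2 = j := by revert j; decide
  rw [this]
  tauto

/-- the data -/
structure Dat {S : Type*} [Group S] (A : Subgroup S) (φ : DihedralGroup 4 →* S) : Prop where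
  norm : A.Normal
  comm : ∀ a ∈ A, ∀ b ∈ A, a * b = b * a
  cube : ∀ a ∈ A, a * (a * a) = 1
  card : Nat.card A = 9
  cent : ∀ d, (∀ a ∈ A, φ d * a = a * φ d) → d = 1
  gen : ∀ g : S, ∃ a ∈ A, ∃ d, g = a * φ d

section
variable {S : Type*} [Group S]

theorem inv_ne {t y z : S} (hz : z = t * t) (h : z * y * z⁻¹ = y⁻¹) (hc : y * (y * y) = 1)
    (hy : y ≠ 1) : t * y * t⁻¹ ≠ 1 ∧ t * y * t⁻¹ ≠ y ∧ t * y * t⁻¹ ≠ y⁻¹ := by
  have h1 : z * y * z⁻¹ = t * (t * y * t⁻¹) * t⁻¹ := by rw [hz]; group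
  have h2 : y⁻¹ ≠ y := by
    intro h2
    apply hy
    have h3 : y * y = 1 := by
      nth_rewrite 1 [← h2]
      group
    rwa [h3, mul_one] at hc
  refine ⟨?_, ?_, ?_⟩
  · intro h3
    apply hy
    have : y = t⁻¹ * (t * y * t⁻¹) * t := by group
    rw [this, h3]; group
  · intro h3
    apply h2
    rw [← h, h1, h3, h3]
  · intro h3
    apply h2
    rw [← h, h1, h3]
    have : t * y⁻¹ * t⁻¹ = (t * y * t⁻¹)⁻¹ := by group
    rw [this, h3, inv_inv]

variable [Finite S] {A : Subgroup S} {φ : DihedralGroup 4 →* S}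

theorem Dat.gen9 (D : Dat A φ) {y y' : S} (hy : y ∈ A) (hy1 : y ≠ 1) (hy' : y' ∈ A) (h1 : y' ≠ 1)
    (h2 : y' ≠ y) (h3 : y' ≠ y⁻¹) (H : Subgroup S) (hyH : y ∈ H) (hy'H : y' ∈ H) : A ≤ H := by
  classical
  have ho : orderOf y = 3 := by
    haveI : Fact (Nat.Prime 3) := ⟨Nat.prime_three⟩
    refine orderOf_eq_prime ?_ hy1
    rw [pow_succ, pow_two, mul_assoc]
    exact D.cube y hy
  have hdvd : Nat.card (A ⊓ H : Subgroup S) ∣ 3 ^ 2 := by
    have := Subgroup.card_dvd_of_le (inf_le_left : A ⊓ H ≤ A)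
    rwa [D.card] at this
  obtain ⟨k, hk, hk2⟩ := (Nat.dvd_prime_pow Nat.prime_three).1 hdvd
  have hle : zpowers y ≤ A ⊓ H := by
    rw [zpowers_le]
    exact ⟨hy, hyH⟩
  have hc : Nat.card (zpowers y) = 3 := by rw [Nat.card_zpowers, ho]
  interval_cases k
  · exfalso
    have := Subgroup.card_le_of_le hle
    rw [hc, hk2] at this
    omega
  · exfalso
    have h4 : zpowers y = A ⊓ H := Subgroup.eq_of_le_of_card_ge hle (by rw [hk2, hc]; norm_num)
    have h5 : y' ∈ zpowers y := by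
      rw [h4]
      exact ⟨hy', hy'H⟩
    rw [mem_zpowers_iff_mem_range_orderOf, ho] at h5
    simp only [Finset.mem_image, Finset.mem_range] at h5
    obtain ⟨n, hn, hn2⟩ := h5
    interval_cases n
    · exact h1 (by rw [← hn2, pow_zero])
    · exact h2 (by rw [← hn2, pow_one])
    · apply h3
      rw [← hn2, pow_two, eq_comm, inv_eq_iff_mul_eq_one]
      exact D.cube y hy
  · have h4 : A ⊓ H = A := Subgroup.eq_of_le_of_card_ge inf_le_left (by rw [hk2, D.card]; norm_num)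
    exact inf_eq_left.1 h4

theorem Dat.conj (D : Dat A φ) (g : S) {a : S} (ha : a ∈ A) : g * a * g⁻¹ ∈ A :=
  D.norm.conj_mem a ha g

theorem Dat.zinv (D : Dat A φ) : ∀ a ∈ A, φ (DihedralGroup.r 2) * a * (φ (DihedralGroup.r 2))⁻¹ =
    a⁻¹ := by
  obtain ⟨z, hz⟩ : ∃ z, z = φ (DihedralGroup.r 2) := ⟨_, rfl⟩
  obtain ⟨t, ht⟩ : ∃ t, t = φ (DihedralGroup.r 1) := ⟨_, rfl⟩
  have hzt : z = t * t := by
    rw [hz, ht, ← map_mul]
    rfl
  have hz2 : z * z = 1 := by
    rw [hz, ← map_mul, ← map_one φ]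
    rfl
  rw [← hz]
  have h1 : ∃ a ∈ A, z * a ≠ a * z := by
    by_contra h1
    push Not at h1
    have := D.cent (DihedralGroup.r 2) (by rw [← hz]; exact h1)
    revert this
    decide
  obtain ⟨a, ha, haz⟩ := h1
  obtain ⟨y, hy⟩ : ∃ y, y = a * (z * a * z⁻¹)⁻¹ := ⟨_, rfl⟩
  have hyA : y ∈ A := by
    rw [hy]
    exact A.mul_mem ha (A.inv_mem (D.conj z ha))
  have hy1 : y ≠ 1 := by
    intro h
    apply haz
    rw [h, eq_comm, mul_inv_eq_one] at hy
    nth_rewrite 2 [hy]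
    group
  have hyz : z * y * z⁻¹ = y⁻¹ := by
    have e1 : z * y * z⁻¹ = (z * a * z⁻¹) * ((z * z) * a * (z * z)⁻¹)⁻¹ := by
      rw [hy]; group
    rw [e1, hz2, hy]
    group
  obtain ⟨n1, n2, n3⟩ := inv_ne hzt hyz (D.cube y hyA) hy1
  let H : Subgroup S :=
    { carrier := {x | x ∈ A ∧ z * x * z⁻¹ = x⁻¹}
      mul_mem' := by
        rintro x x' ⟨hx, hx2⟩ ⟨hx', hx2'⟩
        refine ⟨A.mul_mem hx hx', ?_⟩
        have : z * (x * x') * z⁻¹ = (z * x * z⁻¹) * (z * x' * z⁻¹) := by group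
        rw [this, hx2, hx2', mul_inv_rev]
        exact D.comm _ (A.inv_mem hx) _ (A.inv_mem hx')
      one_mem' := ⟨A.one_mem, by group⟩
      inv_mem' := by
        rintro x ⟨hx, hx2⟩
        refine ⟨A.inv_mem hx, ?_⟩
        have : z * x⁻¹ * z⁻¹ = (z * x * z⁻¹)⁻¹ := by group
        rw [this, hx2] }
  have hle : A ≤ H := by
    refine D.gen9 hyA hy1 (D.conj t hyA) n1 n2 n3 H ⟨hyA, hyz⟩ ⟨D.conj t hyA, ?_⟩
    have : z * (t * y * t⁻¹) * z⁻¹ = t * (z * y * z⁻¹) * t⁻¹ := by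
      rw [hzt]; group
    rw [this, hyz]
    group
  intro x hx
  exact (hle hx).2

theorem Dat.exists_fixed (D : Dat A φ) (j : ZMod 4) : ∃ a ∈ A, a ≠ 1 ∧
    φ (DihedralGroup.sr j) * a = a * φ (DihedralGroup.sr j) := by
  by_contra h
  push Not at h
  obtain ⟨s, hs⟩ : ∃ s, s = φ (DihedralGroup.sr j) := ⟨_, rfl⟩
  rw [← hs] at h
  have hs2 : s * s = 1 := by
    rw [hs, ← map_mul, d1, map_one]
  have h1 : ∀ a ∈ A, s * a * s⁻¹ = a⁻¹ := by
    intro a ha
    have hx : a * (s * a * s⁻¹) = 1 := by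
      by_contra hne
      apply h _ (A.mul_mem ha (D.conj s ha)) hne
      have e1 : s * (a * (s * a * s⁻¹)) = (s * a * s⁻¹) * ((s * s) * a * (s * s)⁻¹) * s := by
        group
      rw [e1, hs2, D.comm a ha _ (D.conj s ha)]
      group
    exact (eq_inv_of_mul_eq_one_right hx)
  have h2 := D.cent (DihedralGroup.sr j * DihedralGroup.r 2) (by
    intro a ha
    have e1 := h1 a⁻¹ (A.inv_mem ha)
    have e2 := D.zinv a ha
    rw [map_mul, ← hs]
    have e3 : s * φ (DihedralGroup.r 2) * a = s * (φ (DihedralGroup.r 2) * a *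
      (φ (DihedralGroup.r 2))⁻¹) * s⁻¹ * s * φ (DihedralGroup.r 2) := by group
    rw [e3, e2, e1, inv_inv]
    group)
  exact d2 j h2

end

section
variable {S : Type*} [Group S] [Finite S] {A : Subgroup S} {φ : DihedralGroup 4 →* S}
  {M : Type*} [AddCommGroup M] [Module (ZMod 2) M] (ρ : Representation (ZMod 2) S M)

/-- stabilizer of a submodule -/
def stab (N : Submodule (ZMod 2) M) : Subgroup S :=
  { carrier := {g | ∀ m ∈ N, ρ g m ∈ N}
    mul_mem' := by
      intro g h hg hh m hm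
      rw [map_mul]
      exact hg _ (hh m hm)
    one_mem' := by
      intro m hm
      rw [map_one]
      exact hm
    inv_mem' := by
      intro g hg
      have h1 : g⁻¹ ∈ Submonoid.powers g := by
        rw [mem_powers_iff_mem_zpowers]
        exact inv_mem (mem_zpowers g)
      obtain ⟨n, hn⟩ := h1
      change ∀ m ∈ N, ρ g⁻¹ m ∈ N
      rw [← hn]
      clear hn
      induction n with
      | zero => intro m hm; simpa using hm
      | succ n ih =>
        intro m hm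
        simp only [pow_succ, map_mul]
        exact ih _ (hg m hm) }

/-- stabilizer of a vector -/
def fixer (m : M) : Subgroup S :=
  { carrier := {g | ρ g m = m}
    mul_mem' := by
      intro g h (hg : ρ g m = m) (hh : ρ h m = m)
      change ρ (g * h) m = m
      rw [map_mul, Module.End.mul_apply, hh, hg]
    one_mem' := by
      change ρ 1 m = m
      rw [map_one]; rfl
    inv_mem' := by
      intro g (hg : ρ g m = m)
      change ρ g⁻¹ m = m
      nth_rewrite 1 [← hg]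
      rw [← Module.End.mul_apply, ← map_mul, inv_mul_cancel, map_one]
      rfl }

/-- the desired conclusion -/
def Concl (φ : DihedralGroup 4 →* S) (j : ZMod 4) : Prop :=
  Nat.card M = 16 ∧ Nat.card {m : M // ρ (φ (DihedralGroup.sr j)) m = m ∧
      ρ (φ (DihedralGroup.r 2)) m = m} = 4 ∧
    Nat.card {m : M // ρ (φ (DihedralGroup.sr (j + 1))) m = m ∧
      ρ (φ (DihedralGroup.r 2)) m = m} = 2

theorem Dat.fixA (D : Dat A φ) (hfaith : Function.Injective ρ)
    (hirr : ∀ N : Submodule (ZMod 2) M, (∀ s : S, ∀ m ∈ N, ρ s m ∈ N) → N = ⊥ ∨ N = ⊤) (m : M)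
    (hm : ∀ a ∈ A, ρ a m = m) : m = 0 := by
  let N : Submodule (ZMod 2) M :=
    { carrier := {m | ∀ a ∈ A, ρ a m = m}
      add_mem' := by
        intro x y hx hy a ha
        rw [map_add, hx a ha, hy a ha]
      zero_mem' := by
        intro a _
        rw [map_zero]
      smul_mem' := by
        intro c x hx a ha
        rw [map_smul, hx a ha] }
  rcases hirr N (by
    intro s m hm a ha
    have h1 := hm (s⁻¹ * a * s) (by
      have := D.conj s⁻¹ ha
      rwa [inv_inv] at this)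
    change ρ a (ρ s m) = ρ s m
    nth_rewrite 2 [← h1]
    rw [← Module.End.mul_apply, ← Module.End.mul_apply, ← map_mul, ← map_mul]
    congr 2
    group) with h | h
  · have : m ∈ N := hm
    rw [h, Submodule.mem_bot] at this
    exact this
  · exfalso
    have h1 : A = ⊥ := by
      rw [eq_bot_iff]
      intro a ha
      rw [Subgroup.mem_bot]
      apply hfaith
      rw [map_one]
      ext m
      have : m ∈ N := by rw [h]; trivial
      exact this a ha
    have h2 := D.card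
    rw [h1] at h2
    simp at h2

theorem Dat.key2 (D : Dat A φ) (hfaith : Function.Injective ρ)
    (hirr : ∀ N : Submodule (ZMod 2) M, (∀ s : S, ∀ m ∈ N, ρ s m ∈ N) → N = ⊥ ∨ N = ⊤)
    (j : ZMod 4) (a : S) (ha : a ∈ A) (ha1 : a ≠ 1)
    (hsa : φ (DihedralGroup.sr j) * a = a * φ (DihedralGroup.sr j)) (w₀ : M) (hw₀ : w₀ ≠ 0)
    (haw₀ : ρ a w₀ = w₀ ∨ ρ (φ (DihedralGroup.r 1) * a * (φ (DihedralGroup.r 1))⁻¹) w₀ = w₀) :
    Concl ρ φ j := by
  have hzinv := D.zinv
  unfold Concl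
  have e0 : φ (DihedralGroup.sr (j + 1)) = φ (DihedralGroup.sr j) * φ (DihedralGroup.r 1) := by
    rw [← map_mul]; rfl
  rw [e0]
  obtain ⟨z, hz⟩ : ∃ z, z = φ (DihedralGroup.r 2) := ⟨_, rfl⟩
  obtain ⟨r, hr⟩ : ∃ t, t = φ (DihedralGroup.r 1) := ⟨_, rfl⟩
  obtain ⟨s, hs⟩ : ∃ s, s = φ (DihedralGroup.sr j) := ⟨_, rfl⟩
  have hrr : r * r = z := by
    rw [hz, hr, ← map_mul]
    rfl
  have hz2 : z * z = 1 := by
    rw [hz, ← map_mul, ← map_one φ]
    rfl
  have hs2 : s * s = 1 := by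
    rw [hs, ← map_mul, d1, map_one]
  have hzr : z * r = r * z := by rw [← hrr, mul_assoc]
  have hsr : s * r = r * (z * s) := by
    rw [hs, hr, hz, ← map_mul, ← map_mul, ← map_mul, d3]
  have hsz : s * z = z * s := by
    rw [hs, hz, ← map_mul, ← map_mul, d4]
  rw [← hz, ← hr, ← hs]
  rw [← hs] at hsa
  rw [← hr] at haw₀
  rw [← hz] at hzinv
  obtain ⟨b, hb⟩ : ∃ b, b = r * a * r⁻¹ := ⟨_, rfl⟩
  rw [← hb] at haw₀
  have hbA : b ∈ A := by rw [hb]; exact D.conj r ha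
  have haa : a * a = a⁻¹ := by
    rw [eq_comm, inv_eq_iff_mul_eq_one]
    exact D.cube a ha
  have hbb : b * b = b⁻¹ := by
    rw [eq_comm, inv_eq_iff_mul_eq_one]
    exact D.cube b hbA
  have zi : ∀ x ∈ A, z * x = x⁻¹ * z := by
    intro x hx
    rw [← hzinv x hx]; group
  obtain ⟨n1, n2, n3⟩ := inv_ne hrr.symm (hzinv a ha) (D.cube a ha) ha1
  rw [← hb] at n1 n2 n3
  have hbr : b * r = r * a := by rw [hb]; group
  have har : a * r = r * (b * b) := by
    rw [hbb, hb]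
    have e1 : r * (r * a * r⁻¹)⁻¹ = (r * r) * a⁻¹ * r⁻¹ := by group
    rw [e1, hrr, zi _ (A.inv_mem ha), inv_inv, mul_assoc, ← hrr]
    group
  have hsb : s * b = b * (b * s) := by
    have e1 : s * b = (s * r) * a * r⁻¹ := by rw [hb]; group
    rw [e1, hsr, ← mul_assoc b b s, hbb]
    have e2 : r * (z * s) * a * r⁻¹ = r * z * (s * a) * r⁻¹ := by group
    rw [e2, hsa]
    have e3 : r * z * (a * s) * r⁻¹ = r * (z * a) * s * r⁻¹ := by group
    rw [e3, zi a ha, hb]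
    have e4 : r * (a⁻¹ * z) * s * r⁻¹ = (r * a * r⁻¹)⁻¹ * (r * (z * s)) * r⁻¹ := by group
    rw [e4, ← hsr]
    group
  -- a vector fixed by `a`
  obtain ⟨w, hw, haw⟩ : ∃ w : M, w ≠ 0 ∧ ρ a w = w := by
    rcases haw₀ with h | h
    · exact ⟨w₀, hw₀, h⟩
    · refine ⟨ρ r⁻¹ w₀, ?_, ?_⟩
      · intro h0
        apply hw₀
        have := congrArg (ρ r) h0
        rwa [← Module.End.mul_apply, ← map_mul, mul_inv_cancel, map_one, map_zero] at this
      · nth_rewrite 2 [← h]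
        rw [← Module.End.mul_apply, ← Module.End.mul_apply, ← map_mul, ← map_mul]
        congr 2
        rw [hb]; group
  refine key ρ a b r s z hrr hz2 hs2 hsr hzr hsz har hbr (D.cube b hbA) (D.comm a ha b hbA) hsa hsb
    ?_ ?_ ?_ ?_ w hw haw
  · rw [haa, zi _ (A.inv_mem ha), inv_inv]
  · rw [zi b hbA, ← mul_assoc, hbb]
  · intro N hNa hNb hNr hNs
    apply hirr
    intro g
    have hAle : A ≤ stab ρ N := D.gen9 ha ha1 hbA n1 n2 n3 _ hNa hNb
    obtain ⟨α, hα, d, rfl⟩ := D.gen g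
    have hd : φ d ∈ stab ρ N := by
      obtain ⟨l, k, rfl⟩ := d_gen j d
      rw [map_mul, map_pow, map_pow, ← hs, ← hr]
      exact (stab ρ N).mul_mem ((stab ρ N).pow_mem hNs _) ((stab ρ N).pow_mem hNr _)
    exact (stab ρ N).mul_mem (hAle hα) hd
  · intro m hma hmb
    apply D.fixA ρ hfaith hirr m
    intro α hα
    exact (D.gen9 ha ha1 hbA n1 n2 n3 (fixer ρ m) hma hmb) hα

theorem Dat.exists_concl (D : Dat A φ) (hfaith : Function.Injective ρ)
    (hirr : ∀ N : Submodule (ZMod 2) M, (∀ s : S, ∀ m ∈ N, ρ s m ∈ N) → N = ⊥ ∨ N = ⊤)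
    (hM : Nontrivial M) : ∃ j, Concl ρ φ j := by
  obtain ⟨a, ha, ha1, hsa⟩ := D.exists_fixed 0
  obtain ⟨b, hb⟩ : ∃ b, b = φ (DihedralGroup.r 1) * a * (φ (DihedralGroup.r 1))⁻¹ := ⟨_, rfl⟩
  have hbA : b ∈ A := by rw [hb]; exact D.conj _ ha
  have mul : ∀ (g h : S) (m : M), ρ (g * h) m = ρ g (ρ h m) := by
    intro g h m
    rw [map_mul]; rfl
  -- the alternative
  have halt : ∃ w : M, w ≠ 0 ∧ (ρ a w = w ∨ ρ b w = w ∨ ρ (a * b) w = w ∨
      ρ (a * (b * b)) w = w) := by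
    by_contra hno
    push Not at hno
    have hP : ∀ x ∈ A, (∀ m : M, ρ x m = m → m = 0) → ∀ m : M, m + ρ x m + ρ x (ρ x m) = 0 := by
      intro x hx h m
      apply h
      rw [map_add, map_add]
      have e1 : ρ x (ρ x (ρ x m)) = m := by
        rw [← mul x x m, ← mul x (x * x) m, D.cube x hx, map_one]; rfl
      rw [e1]; abel
    have h1 := hP a ha (fun m hm => by
      by_contra h0
      exact (hno m h0).1 hm)
    have h2 := hP b hbA (fun m hm => by
      by_contra h0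
      exact (hno m h0).2.1 hm)
    have h3 := hP (a * b) (A.mul_mem ha hbA) (fun m hm => by
      by_contra h0
      exact (hno m h0).2.2.1 hm)
    have h4 := hP (a * (b * b)) (A.mul_mem ha (A.mul_mem hbA hbA)) (fun m hm => by
      by_contra h0
      exact (hno m h0).2.2.2 hm)
    obtain ⟨m, hm⟩ := exists_ne (0 : M)
    apply hm
    have g1 := h1 m
    have g2 := h2 m
    have g3 := h3 m
    have g4 := h4 m
    have hcomm : ∀ m : M, ρ b (ρ a m) = ρ a (ρ b m) := by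
      intro m
      rw [← mul b a m, D.comm b hbA a ha, mul]
    have hb3 : ∀ m : M, ρ b (ρ b (ρ b m)) = m := by
      intro m
      rw [← mul b b m, ← mul b (b * b) m, D.cube b hbA, map_one]; rfl
    simp only [mul, hcomm, hb3] at g1 g2 g3 g4
    have g5 : ρ a (m + ρ b m + ρ b (ρ b m)) = 0 := by rw [g2, map_zero]
    have g6 : ρ a (ρ a (m + ρ b m + ρ b (ρ b m))) = 0 := by rw [g5, map_zero]
    simp only [map_add] at g5 g6
    have g7 : m + m = 0 := add_self' m
    have e : m = (m + ρ a m + ρ a (ρ a m)) + (m + ρ b m + ρ b (ρ b m)) +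
        (m + ρ a (ρ b m) + ρ a (ρ a (ρ b (ρ b m)))) +
        (m + ρ a (ρ b (ρ b m)) + ρ a (ρ a (ρ b m))) - (m + ρ b m + ρ b (ρ b m)) -
        (ρ a m + ρ a (ρ b m) + ρ a (ρ b (ρ b m))) -
        (ρ a (ρ a m) + ρ a (ρ a (ρ b m)) + ρ a (ρ a (ρ b (ρ b m)))) - (m + m) := by abel
    rw [e, g1, g2, g3, g4, g5, g6, g7]
    simp
  obtain ⟨w, hw, hcase⟩ := halt
  rcases hcase with h | h | h | h
  · exact ⟨0, D.key2 ρ hfaith hirr 0 a ha ha1 hsa w hw (Or.inl h)⟩
  · exact ⟨0, D.key2 ρ hfaith hirr 0 a ha ha1 hsa w hw (Or.inr (by rw [← hb]; exact h))⟩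
  all_goals
    obtain ⟨r, hr⟩ : ∃ r, r = φ (DihedralGroup.r 1) := ⟨_, rfl⟩
    obtain ⟨s, hs⟩ : ∃ s, s = φ (DihedralGroup.sr 0) := ⟨_, rfl⟩
    obtain ⟨z, hz⟩ : ∃ z, z = φ (DihedralGroup.r 2) := ⟨_, rfl⟩
    have hzinv := D.zinv
    rw [← hz] at hzinv
    rw [← hs] at hsa
    rw [← hr] at hb
    have hrr : r * r = z := by
      rw [hz, hr, ← map_mul]
      rfl
    have hsr : s * r = r * (z * s) := by
      rw [hs, hr, hz, ← map_mul, ← map_mul, ← map_mul, d3]
    have hbb : b * b = b⁻¹ := by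
      rw [eq_comm, inv_eq_iff_mul_eq_one]
      exact D.cube b hbA
    have hrb : r * b * r⁻¹ = a⁻¹ := by
      rw [← hzinv a ha, hb, ← hrr]; group
    have hsa' : s * a * s⁻¹ = a := by rw [hsa]; group
    have hsb : s * b * s⁻¹ = b⁻¹ := by
      have e1 : s * b * s⁻¹ = (s * r) * a * (s * r)⁻¹ := by rw [hb]; group
      have e2 : (s * r) * a * (s * r)⁻¹ = r * (z * (s * a * s⁻¹) * z⁻¹) * r⁻¹ := by
        rw [hsr]; group
      rw [e1, e2, hsa', hzinv a ha, hb]
      group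
    have hne : a * b⁻¹ ≠ 1 := by
      intro h1
      have h2 : a = b := mul_inv_eq_one.1 h1
      obtain ⟨-, n2, -⟩ := inv_ne hrr.symm (hzinv a ha) (D.cube a ha) ha1
      rw [← hb] at n2
      exact n2 h2.symm
    have h1 : φ (DihedralGroup.sr 1) * (a * b⁻¹) = (a * b⁻¹) * φ (DihedralGroup.sr 1) := by
      have e0 : φ (DihedralGroup.sr 1) = s * r := by
        rw [hs, hr, ← map_mul]; rfl
      rw [e0]
      have e1 : s * r * (a * b⁻¹) = (s * (r * a * r⁻¹) * s⁻¹) * (s * (r * b * r⁻¹)⁻¹ * s⁻¹) *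
          (s * r) := by group
      rw [e1, hrb, ← hb, hsb, inv_inv, hsa', D.comm _ (A.inv_mem hbA) a ha]
    have h2 : r * (a * b⁻¹) * r⁻¹ = a * b := by
      have e1 : r * (a * b⁻¹) * r⁻¹ = (r * a * r⁻¹) * (r * b * r⁻¹)⁻¹ := by group
      rw [e1, hrb, ← hb, inv_inv, D.comm b hbA a ha]
    have hmem : a * b⁻¹ ∈ A := A.mul_mem ha (A.inv_mem hbA)
    first
      | exact ⟨1, D.key2 ρ hfaith hirr 1 (a * b⁻¹) hmem hne h1 w hw
          (Or.inr (by rw [← hr, h2]; exact h))⟩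
      | exact ⟨1, D.key2 ρ hfaith hirr 1 (a * b⁻¹) hmem hne h1 w hw
          (Or.inl (by rw [hbb] at h; exact h))⟩

theorem fixK (j : ZMod 4) (m : M) : (∀ b ∈ (K j).map φ, ρ b m = m) ↔
    (ρ (φ (DihedralGroup.sr j)) m = m ∧ ρ (φ (DihedralGroup.r 2)) m = m) := by
  constructor
  · intro h
    exact ⟨h _ (mem_map_of_mem φ (Or.inr (Or.inr (Or.inl rfl)))),
      h _ (mem_map_of_mem φ (Or.inr (Or.inl rfl)))⟩
  · rintro ⟨h1, h2⟩ b ⟨d, hd, rfl⟩
    rcases hd with rfl | rfl | rfl | rfl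
    · rw [map_one, map_one]; rfl
    · exact h2
    · exact h1
    · have : (DihedralGroup.sr (j + 2) : DihedralGroup 4) =
          DihedralGroup.sr j * DihedralGroup.r 2 := rfl
      rw [this, map_mul, map_mul, Module.End.mul_apply, h2, h1]

theorem final (D : Dat A φ) (hφ : Function.Injective φ) (hfaith : Function.Injective ρ)
    (hirr : ∀ N : Submodule (ZMod 2) M, (∀ s : S, ∀ m ∈ N, ρ s m ∈ N) → N = ⊥ ∨ N = ⊤)
    (hM : Nontrivial M) :
    Nat.card M = 16 ∧
      ∃! B : Subgroup S, B ≤ φ.range ∧ Nat.card ↥B = 4 ∧ (∀ b ∈ B, b ^ 2 = 1) ∧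
        Nat.card {m : M // ∀ b ∈ B, ρ b m = m} = 2 := by
  obtain ⟨j, h1, h2, h3⟩ := D.exists_concl ρ hfaith hirr hM
  have hc : ∀ i, Nat.card {m : M // ∀ b ∈ (K i).map φ, ρ b m = m} =
      Nat.card {m : M // ρ (φ (DihedralGroup.sr i)) m = m ∧ ρ (φ (DihedralGroup.r 2)) m = m} := by
    intro i
    exact Nat.card_congr (Equiv.subtypeEquivRight (fixK ρ i))
  refine ⟨h1, (K (j + 1)).map φ, ⟨?_, ?_, ?_, ?_⟩, ?_⟩
  · rintro _ ⟨d, -, rfl⟩
    exact ⟨d, rfl⟩
  · refine Eq.trans ?_ (K_card (j + 1))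
    exact Nat.card_congr ((K (j + 1)).equivMapOfInjective φ hφ).toEquiv.symm
  · rintro _ ⟨d, hd, rfl⟩
    rw [← map_pow, K_sq' (j + 1) d hd, map_one]
  · rw [hc, h3]
  · rintro B ⟨hB1, hB2, hB3, hB4⟩
    have hBm : (B.comap φ).map φ = B := by
      rw [map_comap_eq, inf_eq_right]
      exact hB1
    obtain ⟨i, hi⟩ := class4 (B.comap φ) (by
      refine Eq.trans ?_ hB2
      nth_rewrite 2 [← hBm]
      exact Nat.card_congr ((B.comap φ).equivMapOfInjective φ hφ).toEquiv) (by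
      intro d hd
      apply hφ
      rw [map_pow, map_one]
      exact hB3 _ hd)
    rw [hi] at hBm
    rw [← hBm] at hB4 ⊢
    rcases four_cases i j with rfl | rfl | rfl | rfl
    · exfalso
      rw [hc, h2] at hB4
      omega
    · exfalso
      rw [K_add2, hc, h2] at hB4
      omega
    · rfl
    · rw [K_add2]

end

theorem main {S : Type*} [Group S] [Finite S]
    (A : Subgroup S) [A.Normal] (hA : Cfsg.IsElementaryAbelian 3 A) (hA9 : Nat.card ↥A = 9)
    (hAC : Subgroup.centralizer (A : Set S) = A) (X : Subgroup S)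
    (hX : Nonempty (↥X ≃* DihedralGroup 4)) (hAX : A ⊔ X = ⊤)
    {M : Type*} [AddCommGroup M] [Module (ZMod 2) M] [Finite M] (ρ : Representation (ZMod 2) S M)
    (hfaith : Function.Injective ρ)
    (hirr : ∀ N : Submodule (ZMod 2) M, (∀ s : S, ∀ m ∈ N, ρ s m ∈ N) → N = ⊥ ∨ N = ⊤)
    (hM : Nontrivial M) :
    Nat.card M = 16 ∧
      ∃! B : Subgroup S, B ≤ X ∧ Nat.card ↥B = 4 ∧ (∀ b ∈ B, b ^ 2 = 1) ∧
        Nat.card {m : M // ∀ b ∈ B, ρ b m = m} = 2 := by
  obtain ⟨e⟩ := hX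
  obtain ⟨φ, hφ⟩ : ∃ φ : DihedralGroup 4 →* S, φ = X.subtype.comp e.symm.toMonoidHom := ⟨_, rfl⟩
  have hinj : Function.Injective φ := by
    rw [hφ]
    exact X.subtype_injective.comp e.symm.injective
  have hrange : φ.range = X := by
    rw [hφ]
    ext x
    constructor
    · rintro ⟨d, rfl⟩
      exact (e.symm d).2
    · intro hx
      exact ⟨e ⟨x, hx⟩, by simp⟩
  have D : Dat A φ := by
    refine ⟨inferInstance, ?_, ?_, hA9, ?_, ?_⟩
    · intro a ha b hb
      have := hA.1.is_comm.comm (⟨a, ha⟩ : A) ⟨b, hb⟩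
      exact congrArg Subtype.val this
    · intro a ha
      have := hA.2 a ha
      rwa [pow_succ, pow_two, mul_assoc] at this
    · intro d hd
      have h1 : φ d ∈ A := by
        rw [← hAC, mem_centralizer_iff]
        intro a ha
        exact (hd a ha).symm
      have h3 : (φ d) ^ 3 = 1 := hA.2 _ h1
      have h8 : (φ d) ^ 8 = 1 := by
        rw [← map_pow]
        have : ∀ d : DihedralGroup 4, d ^ 8 = 1 := by decide
        rw [this, map_one]
      apply hinj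
      rw [map_one]
      have : φ d = ((φ d) ^ 3) ^ 3 * ((φ d) ^ 8)⁻¹ := by group
      rw [this, h3, h8]; simp
    · intro g
      have hg : g ∈ A ⊔ X := by rw [hAX]; trivial
      rw [mem_sup_of_normal_left] at hg
      obtain ⟨a, ha, x, hx, rfl⟩ := hg
      rw [← hrange] at hx
      obtain ⟨d, rfl⟩ := hx
      exact ⟨a, ha, d, rfl⟩
  have := final ρ D hinj hfaith hirr hM
  rwa [hrange] at this

end CfsgLib.S4407
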