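import Mathlib
import Cfsg.Agent.LibSylLH13

set_option autoImplicit false
set_option maxRecDepth 100000

open scoped Pointwise
open Equiv

namespace CfsgLib.S6

/-- the matching `01|23|45` -/
def t0 : Perm (Fin 6) := swap 0 1 * swap 2 3 * swap 4 5

/-- the elements of the Sylow subgroup -/
def pp (i j k l : Bool) : Perm (Fin 6) :=
  (if i then swap 0 1 else 1) * (if j then swap 2 3 else 1) * (if k then swap 4 5 else 1) * (if l then swap 0 2 * swap 1 3 else 1)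

def tw : Perm (Fin 6) := swap 0 4 * swap 1 2 * swap 3 5

theorem chk_card : ∀ g : Perm (Fin 6), (∀ i, g (t0 i) = t0 (g i)) → (g 4 = 4 ∨ g 4 = 5) → ∃ i j k l, g = pp i j k l := by
  decide +kernel

theorem chk_mem : ∀ i j k l, (∀ x, pp i j k l (t0 x) = t0 (pp i j k l x)) ∧ (pp i j k l 4 = 4 ∨ pp i j k l 4 = 5) := by
  decide +kernel

theorem chk_inj : ∀ i j k l i' j' k' l', pp i j k l = pp i' j' k' l' → i = i' ∧ j = j' ∧ k = k' ∧ l = l' := by
  decide +kernel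

theorem chk_triv : ∀ t' : Perm (Fin 6), (∀ i, t' (t' i) = i ∧ t' i ≠ i) → ∀ x : Fin 6,
    (∃ i j k l, pp i j k l ≠ 1 ∧ (∀ y, pp i j k l (t' y) = t' (pp i j k l y)) ∧ (pp i j k l x = x ∨ pp i j k l x = t' x)) ∨
    (∃ i j k l, (∀ y, t' (pp i j k l y) = pp i j k l (tw y)) ∧ (x = pp i j k l 0 ∨ x = pp i j k l 4)) := by
  decide +kernel

theorem chk_norm : ∀ t' : Perm (Fin 6), (∀ i, t' (t' i) = i ∧ t' i ≠ i) → ∀ x : Fin 6,
    (t' = t0 ∧ (x = 4 ∨ x = 5)) ∨ (∃ i j k l, ¬ ((∀ y, pp i j k l (t' y) = t' (pp i j k l y)) ∧ (pp i j k l x = x ∨ pp i j k l x = t' x))) := by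
  decide +kernel

end CfsgLib.S6
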