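import Mathlib
import Cfsg.Agent.LibS6H13
import Cfsg.Agent.LibAutAn27

set_option autoImplicit false

open scoped Pointwise
open Equiv

namespace CfsgLib.S6

open CfsgLib.SylL

theorem ai (g : Perm (Fin 6)) (x : Fin 6) : g (g⁻¹ x) = x := by rw [← Perm.mul_apply, mul_inv_cancel]; rfl

theorem ia (g : Perm (Fin 6)) (x : Fin 6) : g⁻¹ (g x) = x := by rw [← Perm.mul_apply, inv_mul_cancel]; rfl

theorem t0_t0 (x : Fin 6) : t0 (t0 x) = x := by revert x; decide

theorem exists_w : ∃ w : Perm (Fin 6), (∀ i, w (t0 i) = tw (w i)) ∧ w 4 = 0 := by decide +kernel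

theorem tw0 : tw 0 = 4 := by decide

/-- a Sylow 2-subgroup of `S₆` -/
def P0 : Subgroup (Perm (Fin 6)) where
  carrier := {g | (∀ i, g (t0 i) = t0 (g i)) ∧ (g 4 = 4 ∨ g 4 = 5)}
  mul_mem' := by
    rintro a b ⟨ha, ha'⟩ ⟨hb, hb'⟩
    refine ⟨fun i => ?_, ?_⟩
    · rw [Perm.mul_apply, Perm.mul_apply, hb, ha]
    · rw [Perm.mul_apply]
      rcases hb' with h | h
      · rw [h]; exact ha'
      · rw [h]
        have h1 : a 5 = t0 (a 4) := by rw [← ha]; rfl
        rw [h1]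
        rcases ha' with h2 | h2
        · rw [h2]; right; decide
        · rw [h2]; left; decide
  one_mem' := ⟨fun i => rfl, Or.inl rfl⟩
  inv_mem' := by
    rintro a ⟨ha, ha'⟩
    refine ⟨fun i => ?_, ?_⟩
    · apply a.injective
      rw [← Perm.mul_apply, mul_inv_cancel, ha, ← Perm.mul_apply a, mul_inv_cancel]; rfl
    · rcases ha' with h2 | h2
      · left; rw [Perm.inv_eq_iff_eq, h2]
      · right
        rw [Perm.inv_eq_iff_eq]
        have h1 : a 5 = t0 (a 4) := by rw [← ha]; rfl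
        rw [h1, h2]; decide

theorem mem_P0 (g : Perm (Fin 6)) : g ∈ P0 ↔ (∀ i, g (t0 i) = t0 (g i)) ∧ (g 4 = 4 ∨ g 4 = 5) := Iff.rfl

theorem pp_mem (i j k l : Bool) : pp i j k l ∈ P0 := chk_mem i j k l

theorem card_P0 : Nat.card P0 = 16 := by
  have e : (Bool × Bool × Bool × Bool) ≃ P0 := Equiv.ofBijective (fun z => (⟨pp z.1 z.2.1 z.2.2.1 z.2.2.2, pp_mem _ _ _ _⟩ : P0)) (by
    constructor
    · rintro ⟨i, j, k, l⟩ ⟨i', j', k', l'⟩ h
      obtain ⟨h1, h2, h3, h4⟩ := chk_inj i j k l i' j' k' l' (congrArg Subtype.val h)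
      rw [h1, h2, h3, h4]
    · rintro ⟨g, hg1, hg2⟩
      obtain ⟨i, j, k, l, h⟩ := chk_card g hg1 hg2
      exact ⟨(i, j, k, l), Subtype.ext h.symm⟩)
  rw [← Nat.card_congr e, Nat.card_eq_fintype_card]
  rfl

theorem isPGroup_P0 : IsPGroup 2 P0 := IsPGroup.of_card (n := 4) (by rw [card_P0]; norm_num)

theorem index_P0 : ¬ 2 ∣ P0.index := by
  have h1 := P0.card_mul_index
  rw [card_P0, Nat.card_eq_fintype_card, Fintype.card_perm, Fintype.card_fin] at h1
  have h2 : Nat.factorial 6 = 720 := rfl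
  rw [h2] at h1
  omega

/-- the conjugate subgroup in terms of the flag -/
theorem mem_conj_P0 (g y : Perm (Fin 6)) : y ∈ MulAut.conj g • P0 ↔
    (∀ i, y ((g * t0 * g⁻¹) i) = (g * t0 * g⁻¹) (y i)) ∧ (y (g 4) = g 4 ∨ y (g 4) = (g * t0 * g⁻¹) (g 4)) := by
  rw [mem_conj, mem_P0]
  have h45 : t0 4 = 5 := by decide
  constructor
  · rintro ⟨h1, h2⟩
    refine ⟨fun i => ?_, ?_⟩
    · have h3 := congrArg g (h1 (g⁻¹ i))
      simp only [Perm.mul_apply, ai] at h3 ⊢
      exact h3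
    · simp only [Perm.mul_apply, ia] at h2 ⊢
      rcases h2 with h2 | h2
      · left
        have h3 := congrArg g h2
        rw [ai] at h3; exact h3
      · right
        have h3 := congrArg g h2
        rw [ai] at h3; rw [h45]; exact h3
  · rintro ⟨h1, h2⟩
    refine ⟨fun i => ?_, ?_⟩
    · have h3 := h1 (g i)
      simp only [Perm.mul_apply, ia] at h3 ⊢
      rw [h3, ia]
    · simp only [Perm.mul_apply, ia] at h2 ⊢
      rcases h2 with h2 | h2
      · left; rw [h2, ia]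
      · right; rw [h2, ia, h45]

theorem fpf (g : Perm (Fin 6)) (i : Fin 6) : (g * t0 * g⁻¹) ((g * t0 * g⁻¹) i) = i ∧ (g * t0 * g⁻¹) i ≠ i := by
  constructor
  · simp only [Perm.mul_apply, ia, t0_t0, ai]
  · intro h
    have h1 : ∀ x, t0 x ≠ x := by decide
    apply h1 (g⁻¹ i)
    simp only [Perm.mul_apply] at h
    exact Perm.eq_inv_iff_eq.2 h

theorem norm_P0 {g : Perm (Fin 6)} (hg : MulAut.conj g • P0 = P0) : g ∈ P0 := by
  rcases chk_norm (g * t0 * g⁻¹) (fpf g) (g 4) with ⟨h1, h2⟩ | ⟨i, j, k, l, h⟩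
  · refine ⟨fun i => ?_, h2⟩
    have h3 := congrArg (fun z : Perm (Fin 6) => z (g i)) h1
    simp only [Perm.mul_apply, ia] at h3
    exact h3
  · exfalso
    apply h
    rw [← mem_conj_P0, hg]
    exact pp_mem i j k l

theorem triv_P0 {w : Perm (Fin 6)} (hw : (∀ i, w (t0 i) = tw (w i)) ∧ w 4 = 0) {g : Perm (Fin 6)} (hg : P0 ⊓ MulAut.conj g • P0 = ⊥) :
    ∃ b ∈ P0, MulAut.conj g • P0 = MulAut.conj (b * w) • P0 := by
  rcases chk_triv (g * t0 * g⁻¹) (fpf g) (g 4) with ⟨i, j, k, l, h1, h2⟩ | ⟨i, j, k, l, h1, h2⟩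
  · exfalso
    apply h1
    rw [← Subgroup.mem_bot, ← hg]
    exact ⟨pp_mem i j k l, (mem_conj_P0 _ _).2 h2⟩
  · refine ⟨pp i j k l, pp_mem i j k l, ?_⟩
    have h3 : (pp i j k l * w)⁻¹ * g ∈ P0 := by
      set b := pp i j k l with hb
      refine ⟨fun x => ?_, ?_⟩
      · -- `g t0 g⁻¹ = b tw b⁻¹ = (b w) t0 (b w)⁻¹`
        have h4 : ∀ y, (g * t0 * g⁻¹) (b (w y)) = b (w (t0 y)) := by
          intro y; rw [h1, hw.1]
        have h5 := h4 (((b * w)⁻¹ * g) x)
        simp only [Perm.mul_apply, mul_inv_rev, ai, ia] at h5 ⊢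
        rw [h5]
        simp only [ia]
      · have h4 : g 4 = b (w 4) ∨ g 4 = b (w 5) := by
          have h5 : w 5 = 4 := by
            have := hw.1 4
            rw [hw.2, tw0] at this
            rw [← this]; rfl
          rw [hw.2, h5]; exact h2
        rcases h4 with h4 | h4
        · left; simp only [Perm.mul_apply, mul_inv_rev, h4, ia]
        · right; simp only [Perm.mul_apply, mul_inv_rev, h4, ia]
    have h4 : g = (pp i j k l * w) * ((pp i j k l * w)⁻¹ * g) := by group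
    rw [h4, CfsgLib.SylL.conj_mul, conj_self h3]

end CfsgLib.S6
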