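import Cfsg.Agent.LibSB0

set_option autoImplicit false
set_option maxRecDepth 1000000

/-! Automorphisms of Chevalley groups: graph automorphisms, one root length -/

namespace CfsgLib.Chev

open Cfsg.Lie CfsgLib.SA

namespace Tb
noncomputable def chkSym (T : Tb) : Bool := (allB T.l fun i => allB T.l fun j => decide (T.A i (T.sim j) = T.A j (T.sim i))) &&
  allB T.n fun r => allB T.l fun i => decide (T.c r i = T.v r i)
end Tb

theorem sym_D4 : tD4.chkSym = true := by decide +kernel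
theorem sym_E6 : tE6.chkSym = true := by decide +kernel

namespace Good3

variable {D : ChevalleyDatum} {T : Tb} (g : Good3 D T)

omit g in
theorem sa_sym (h : T.chkSym = true) : (∀ i < T.l, ∀ j < T.l, T.A i (T.sim j) = T.A j (T.sim i)) ∧
    ∀ r < T.n, ∀ i < T.l, T.c r i = T.v r i := by
  unfold Tb.chkSym at h
  rw [Bool.and_eq_true, allB_iff, allB_iff] at h
  constructor
  · intro i hi j hj
    have := h.1 i hi
    rw [allB_iff] at this
    simpa using this j hj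
  · intro r hr i hi
    have := h.2 r hr
    rw [allB_iff] at this
    simpa using this i hi

include g

/-- a permutation of the nodes preserving the bonds preserves the Cartan matrix -/
theorem sa_perm_A (hsl : T.chkSL = true) (hsy : T.chkSym = true) {ρ : Equiv.Perm (Fin T.l)}
    (hb : ∀ i j : Fin T.l, i ≠ j → T.A (ρ i) (T.sim (ρ j)) * T.A (ρ j) (T.sim (ρ i)) = T.A i (T.sim j) * T.A j (T.sim i)) (i j : Fin T.l) :
    T.A (ρ i) (T.sim (ρ j)) = T.A i (T.sim j) := by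
  by_cases hij : i = j
  · subst hij
    rw [g.MiscA i.2, g.MiscA (ρ i).2]
  · have h1 := hb i j hij
    rw [(sa_sym hsy).1 _ (ρ j).2 _ (ρ i).2, (sa_sym hsy).1 _ j.2 _ i.2] at h1
    have hij' : (ρ i : ℕ) ≠ ρ j := fun h => hij (ρ.injective (Fin.ext h))
    rcases (sa_SL hsl).2 _ i.2 _ j.2 (fun h => hij (Fin.ext h)) with h2 | h2 <;>
    rcases (sa_SL hsl).2 _ (ρ i).2 _ (ρ j).2 hij' with h3 | h3 <;> rw [h2, h3] at h1 ⊢ <;> norm_num at h1

theorem sa_perm_root (hsl : T.chkSL = true) (hsy : T.chkSym = true) {ρ : Equiv.Perm (Fin T.l)}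
    (hA : ∀ i j : Fin T.l, T.A (ρ i) (T.sim (ρ j)) = T.A i (T.sim j)) {r s : ℕ} (hr : r < T.n) (hs : s < T.n)
    (h : ∀ j : Fin T.l, T.v s (ρ j) = T.v r j) (i : Fin T.l) (j : Fin T.l) : T.v (T.w (ρ i) s) (ρ j) = T.v (T.w i r) j := by
  have e1 : T.A (ρ i) s = T.A i r := by
    rw [g.A_eq hs (ρ i).2, g.A_eq hr i.2, Finset.sum_range, Finset.sum_range, ← Equiv.sum_comp ρ]
    apply Finset.sum_congr rfl
    intro k _
    rw [h, hA]
  rw [g.v_w (ρ i).2 hs (ρ j).2, g.v_w i.2 hr j.2, h, e1]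
  by_cases hij : j = i
  · subst hij; simp
  · have h1 : (j : ℕ) ≠ i := fun h => hij (Fin.ext h)
    have h2 : (ρ j : ℕ) ≠ ρ i := fun h => hij (ρ.injective (Fin.ext h))
    rw [if_neg h1, if_neg h2]

section Mat
variable {F : Type*} [Field F]

theorem sa_graph_roots (hsl : T.chkSL = true) (hsy : T.chkSym = true) {ρ : Equiv.Perm (Fin T.l)}
    (hA : ∀ i j : Fin T.l, T.A (ρ i) (T.sim (ρ j)) = T.A i (T.sim j)) {φ : D.group F ≃* D.group F}
    (hx : ∀ i : Fin T.l, ∀ t, ex φ (g.X (T.sim i) t) = g.X (T.sim (ρ i)) t)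
    (hy : ∀ i : Fin T.l, ∀ t, ex φ (g.X (T.n - 1 - T.sim i) t) = g.X (T.n - 1 - T.sim (ρ i)) t) :
    ∀ r < T.n, ∃ s < T.n, (∀ j : Fin T.l, T.v s (ρ j) = T.v r j) ∧ ∃ ε : ℤ, (ε = 1 ∨ ε = -1) ∧
      ∀ t : F, ex φ (g.X r t) = g.X s ((ε : F) * t) := by
  have hn : ∀ i : Fin T.l, ex φ (g.nn (F := F) i) = g.nn (ρ i) := by
    intro i
    have := g.sa_Ng (F := F) (f := fun _ t => t) (f' := fun _ t => t) hx hy i (t := 1) one_ne_zero
    exact this
  apply g.root_ind
  · intro i hi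
    refine ⟨T.sim (ρ ⟨i, hi⟩), g.sim_lt (ρ _).2, ?_, 1, Or.inl rfl, ?_⟩
    · intro j
      rw [g.v_sim (ρ _).2 (ρ _).2, g.v_sim hi j.2]
      by_cases hij : (⟨i, hi⟩ : Fin T.l) = j
      · subst hij; simp
      · have h1 : i ≠ (j : ℕ) := fun h => hij (Fin.ext h)
        have h2 : (ρ ⟨i, hi⟩ : ℕ) ≠ ρ j := fun h => hij (ρ.injective (Fin.ext h))
        rw [if_neg h1, if_neg h2]
    · intro t
      rw [Int.cast_one, one_mul]
      exact hx ⟨i, hi⟩ t
  · rintro i hi r hr ⟨s, hs, hv, ε, hε, hφ⟩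
    have hwr := g.w_lt hi hr
    refine ⟨T.w (ρ ⟨i, hi⟩) s, g.w_lt (ρ _).2 hs, ?_, T.eta (ρ ⟨i, hi⟩) (T.w (ρ ⟨i, hi⟩) s) * ε * T.eta i r, ?_, ?_⟩
    · intro j
      have := g.sa_perm_root hsl hsy hA hwr hs hv ⟨i, hi⟩ j
      rw [this]
      show T.v (T.w i (T.w i r)) j = T.v r j
      rw [g.w_w hi hr]
    · rcases hε with rfl | rfl <;> rcases T.eta_cases i r with h | h <;>
        rcases T.eta_cases (ρ ⟨i, hi⟩) (T.w (ρ ⟨i, hi⟩) s) with h' | h' <;> rw [h, h'] <;> norm_num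
    · intro t
      have hnG : g.nn (F := F) i ∈ D.group F := g.Ng_mem_G _ _
      have e1 : g.X r t = (g.nn i)⁻¹ * (g.X (T.w i r) (((T.eta i r : ℤ) : F) * t)) * ((g.nn i)⁻¹)⁻¹ := by
        rw [← g.nn_X_conj hi hr]; group
      rw [e1, ex_conj φ (Subgroup.inv_mem _ hnG) (g.X_mem_G _ _), ex_inv φ hnG, hφ]
      have hn' := hn ⟨i, hi⟩
      simp only at hn'
      rw [hn', inv_inv, g.nn_X_conj' (ρ _).2 hs]
      congr 1
      push_cast
      ring

end Mat

end Good3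

theorem sl_sym_of_mem {D : ChevalleyDatum} (hD : D ∈ [chevD4, chevE6]) : ∃ T : Tb, Good3 D T ∧ T.chkSL = true ∧ T.chkSym = true := by
  simp only [List.mem_cons, List.not_mem_nil, or_false] at hD
  rcases hD with h | h <;> subst h
  · exact ⟨_, good3_D4, sl_D4, sym_D4⟩
  · exact ⟨_, good3_E6, sl_E6, sym_E6⟩

end CfsgLib.Chev

namespace CfsgLib.Chev

open Cfsg.Lie CfsgLib.SA

namespace Good3

variable {D : ChevalleyDatum} {T : Tb} (g : Good3 D T)
include g

theorem sa_permRoot (hsy : T.chkSym = true) (π : Equiv.Perm (Fin D.rank)) {r s : ℕ} (hr : r < T.n) (hs : s < T.n)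
    (h : ∀ j : Fin T.l, T.v s ((finCongr g.hl).permCongr π j) = T.v r j) : D.permRoot π r = s := by
  have hp : ∀ s' < T.n, ((List.finRange D.rank).all fun i =>
      (D.coroot.getD s' #[]).getD (π i).val 0 == (D.coroot.getD r #[]).getD i.val 0) = true ↔ s' = s := by
    intro s' hs'
    rw [List.all_eq_true]
    constructor
    · intro h1
      apply g.sa_v_inj hs' hs
      intro k hk
      obtain ⟨j, hj⟩ := ((finCongr g.hl).permCongr π).surjective ⟨k, hk⟩
      have h2 := h1 ((finCongr g.hl).symm j) (List.mem_finRange _)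
      rw [beq_iff_eq] at h2
      have h3 : cor D s' (π ((finCongr g.hl).symm j)) = cor D r j := h2
      have h4 : ((π ((finCongr g.hl).symm j) : Fin D.rank) : ℕ) = k := by
        have := congrArg Fin.val hj
        exact this
      rw [h4, g.cD hs' hk, g.cD hr j.2, (sa_sym hsy).2 s' hs' k hk, (sa_sym hsy).2 r hr j j.2] at h3
      rw [h3, ← h j, hj]
    · rintro rfl
      intro i _
      rw [beq_iff_eq]
      have h1 := h (finCongr g.hl i)
      have hπ : (π i : ℕ) < T.l := by rw [← g.hl]; exact (π i).2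
      have hi : (i : ℕ) < T.l := by rw [← g.hl]; exact i.2
      have h2 : T.v s' (π i : ℕ) = T.v r i := h1
      rw [← (sa_sym hsy).2 s' hs _ hπ, ← (sa_sym hsy).2 r hr i hi, ← g.cD hs hπ, ← g.cD hr hi] at h2
      exact h2
  unfold ChevalleyDatum.permRoot
  cases hf : (List.range D.nroots).find? (fun s => (List.finRange D.rank).all fun i =>
      (D.coroot.getD s #[]).getD (π i).val 0 == (D.coroot.getD r #[]).getD i.val 0) with
  | none =>
    rw [List.find?_eq_none] at hf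
    exact absurd ((hp s hs).2 rfl) (hf s (List.mem_range.2 (by rw [g.hn]; exact hs)))
  | some s' =>
    have h1 := List.find?_some hf
    have h2 := List.mem_of_find?_eq_some hf
    rw [List.mem_range, g.hn] at h2
    exact (hp s' h2).1 h1

theorem sa_S2161 {F : Type*} [Field F] (hsl : T.chkSL = true) (hsy : T.chkSym = true) 
    (π : Equiv.Perm (Fin D.rank)) (hπ : D.IsDiagramSymmetry π) (φ : ↥(D.group F) ≃* ↥(D.group F))
    (hφ : ∀ (g : ↥(D.group F)) (i : Fin D.rank) (t : F),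
      (((g : GL D.Idx F) : Matrix D.Idx D.Idx F) = D.x F (D.simple i) t →
        ((φ g : GL D.Idx F) : Matrix D.Idx D.Idx F) = D.x F (D.simple (π i)) t) ∧
      (((g : GL D.Idx F) : Matrix D.Idx D.Idx F) = D.x F (D.neg (D.simple i)) t →
        ((φ g : GL D.Idx F) : Matrix D.Idx D.Idx F) = D.x F (D.neg (D.simple (π i))) t))
    (r : ℕ) (hr : r < D.nroots) :
    ∃ ε : F, (ε = 1 ∨ ε = -1) ∧ ∀ (g : ↥(D.group F)) (t : F),
      ((g : GL D.Idx F) : Matrix D.Idx D.Idx F) = D.x F r t →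
        ((φ g : GL D.Idx F) : Matrix D.Idx D.Idx F) = D.x F (D.permRoot π r) (ε * t) := by
  have hev := g.even
  rw [g.hn] at hr
  have hi' : ∀ i : Fin T.l, (i : ℕ) < D.rank := fun i => by rw [g.hl]; exact i.2
  set ρ : Equiv.Perm (Fin T.l) := (finCongr g.hl).permCongr π with hρ
  have hρv : ∀ i : Fin T.l, ((π ⟨i, hi' i⟩ : Fin D.rank) : ℕ) = ρ i := fun i => rfl
  have hb : ∀ i j : Fin T.l, i ≠ j → T.A (ρ i) (T.sim (ρ j)) * T.A (ρ j) (T.sim (ρ i)) = T.A i (T.sim j) * T.A j (T.sim i) := by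
    intro i j hij
    have := hπ ⟨i, hi' i⟩ ⟨j, hi' j⟩ (fun h => hij (Fin.ext (by simpa using h)))
    rw [hρv, hρv, g.sa_bonds (ρ i).2 (ρ j).2, g.sa_bonds i.2 j.2] at this
    exact this
  have hx : ∀ i : Fin T.l, ∀ t, ex φ (g.X (T.sim i) t) = g.X (T.sim (ρ i)) t := by
    intro i t
    have := (hφ ⟨g.X (T.sim i) t, g.X_mem_G _ _⟩ ⟨i, hi' i⟩ t).1 (by rw [g.simple i i.2]; rfl)
    rw [ex_of_mem φ (g.X_mem_G _ _)]
    rw [hρv, g.simple _ (ρ i).2] at this
    exact g.eq_X this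
  have hy : ∀ i : Fin T.l, ∀ t, ex φ (g.X (T.n - 1 - T.sim i) t) = g.X (T.n - 1 - T.sim (ρ i)) t := by
    intro i t
    have hsl := g.sim_lt i.2
    have := (hφ ⟨g.X (T.n - 1 - T.sim i) t, g.X_mem_G _ _⟩ ⟨i, hi' i⟩ t).2 (by rw [g.simple i i.2, g.neg hsl]; rfl)
    rw [ex_of_mem φ (g.X_mem_G _ _)]
    rw [hρv, g.simple _ (ρ i).2, g.neg (g.sim_lt (ρ i).2)] at this
    exact g.eq_X this
  obtain ⟨s, hs, hv, ε, hε, hX⟩ := g.sa_graph_roots hsl hsy (g.sa_perm_A hsl hsy hb) hx hy r hr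
  have hpr := g.sa_permRoot hsy π hr hs hv
  refine ⟨(ε : F), ?_, ?_⟩
  · rcases hε with rfl | rfl
    · left; simp
    · right; simp
  · intro x t hxt
    have h1 : (x : GL D.Idx F) = g.X r t := g.eq_X hxt
    have h2 := hX t
    rw [← h1, ex_coe] at h2
    rw [h2, hpr]
    rfl

end Good3

end CfsgLib.Chev
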