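import Cfsg.Agent.LibSB1
import Cfsg.Prelude.Def_KGroupFacts
import Cfsg.Agent.LibChevCardH

set_option autoImplicit false
set_option maxRecDepth 1000000

/-! Automorphisms of Chevalley groups: counting outer automorphisms -/

namespace CfsgLib.Chev

open Cfsg.Lie CfsgLib.SA

theorem pow_inj_of_finite {F : Type*} [Field F] [Finite F] {a b : F} (h : a ^ ringChar F = b ^ ringChar F) : a = b := by
  have := ringChar.charP F
  have : Fact (ringChar F).Prime := ⟨CharP.char_is_prime F _⟩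
  have : ExpChar F (ringChar F) := ExpChar.prime Fact.out
  exact (frobenius F (ringChar F)).injective h

namespace Good3

variable {D : ChevalleyDatum} {T : Tb} (g : Good3 D T)
include g

section Mat
variable {F : Type*} [Field F]

/-- the graph automorphism attached to a permutation of the nodes -/
structure IsGr (γ : D.group F ≃* D.group F) (ρ : Equiv.Perm (Fin T.l)) : Prop where
  hx : ∀ i : Fin T.l, ∀ t, ex γ (g.X (T.sim i) t) = g.X (T.sim (ρ i)) (t ^ saE T F ρ i)
  hy : ∀ i : Fin T.l, ∀ t, ex γ (g.X (T.n - 1 - T.sim i) t) = g.X (T.n - 1 - T.sim (ρ i)) (t ^ saE T F ρ i)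
  hU : Mp γ (D.posUnipotent F) (D.posUnipotent F)
  hV : Mp γ (D.negUnipotent F) (D.negUnipotent F)

variable {g} in
theorem IsGr.unique {γ γ' : D.group F ≃* D.group F} {ρ : Equiv.Perm (Fin T.l)} (h : g.IsGr γ ρ) (h' : g.IsGr γ' ρ) : γ = γ' := by
  apply g.sa_ext
  · intro i hi t
    have h1 := h.hx ⟨i, hi⟩ t
    rw [← h'.hx ⟨i, hi⟩ t] at h1
    exact h1
  · intro i hi t
    have h1 := h.hy ⟨i, hi⟩ t
    rw [← h'.hy ⟨i, hi⟩ t] at h1
    exact h1

omit g in
theorem saE_cases (ρ : Equiv.Perm (Fin T.l)) (i : Fin T.l) : saE T F ρ i = 1 ∨ saE T F ρ i = ringChar F := by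
  unfold saE
  split_ifs
  · right; rfl
  · left; rfl

theorem sa_Mp_V (a : ℕ → Fˣ) : Mp (g.saD a) (D.negUnipotent F) (D.negUnipotent F) := by
  refine ⟨g.V_le_G, g.V_le_G, ?_⟩
  have hev := g.even
  have key : ∀ a : ℕ → Fˣ, ∀ x ∈ D.negUnipotent F, tor D T a * x * (tor D T a)⁻¹ ∈ D.negUnipotent F := by
    intro a x hx
    unfold ChevalleyDatum.negUnipotent at hx
    induction hx using Subgroup.closure_induction with
    | mem x hx =>
      obtain ⟨r, t, hr, hz⟩ := hx
      rw [g.isNeg_iff] at hr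
      rw [g.X_iff] at hz
      rw [hz, g.sa_tor_X' a (by omega)]
      exact g.X_mem_V hr _
    | one => simp
    | mul x y _ _ hx hy =>
      have : tor D T a * (x * y) * (tor D T a)⁻¹ = (tor D T a * x * (tor D T a)⁻¹) * (tor D T a * y * (tor D T a)⁻¹) := by group
      rw [this]; exact Subgroup.mul_mem _ hx hy
    | inv x _ hx =>
      have : tor D T a * x⁻¹ * (tor D T a)⁻¹ = (tor D T a * x * (tor D T a)⁻¹)⁻¹ := by group
      rw [this]; exact Subgroup.inv_mem _ hx
  intro x hx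
  rw [g.ex_saD a hx]
  constructor
  · exact key a x
  · intro h
    have := key (fun j => (a j)⁻¹) _ h
    rw [← sa_tor_inv, inv_inv] at this
    have e : (tor D T a)⁻¹ * (tor D T a * x * (tor D T a)⁻¹) * tor D T a = x := by group
    rwa [e] at this

theorem sa_Mp_FU (τ : F ≃+* F) : Mp (g.saF τ) (D.posUnipotent F) (D.posUnipotent F) := by
  have key : ∀ (τ : F ≃+* F), ∀ x ∈ D.posUnipotent F, ex (g.saF τ) x ∈ D.posUnipotent F := by
    intro τ x hx
    have hG := g.U_le_G hx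
    rw [g.ex_saF τ hG]
    clear hG
    rw [g.U_eq] at hx ⊢
    induction hx using Subgroup.closure_induction with
    | mem x hx =>
      obtain ⟨r, t, hp, hr, rfl⟩ := hx
      apply Subgroup.subset_closure
      refine ⟨r, τ t, hp, hr, ?_⟩
      exact Units.ext (x_map D τ r t)
    | one => rw [map_one]; exact Subgroup.one_mem _
    | mul x y _ _ hx hy => rw [map_mul]; exact Subgroup.mul_mem _ hx hy
    | inv x _ hx => rw [map_inv]; exact Subgroup.inv_mem _ hx
  refine ⟨g.U_le_G, g.U_le_G, fun x hx => ⟨key _ x, fun h => ?_⟩⟩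
  have h2 := key τ.symm _ h
  have h3 : ex (g.saF τ.symm) (ex (g.saF τ) x) = x := by
    rw [← g.saF_symm, ex_symm _ hx]
  rwa [h3] at h2

theorem sa_Mp_FV (τ : F ≃+* F) : Mp (g.saF τ) (D.negUnipotent F) (D.negUnipotent F) := by
  have hev := g.even
  have key : ∀ (τ : F ≃+* F), ∀ x ∈ D.negUnipotent F, ex (g.saF τ) x ∈ D.negUnipotent F := by
    intro τ x hx
    have hG := g.V_le_G hx
    rw [g.ex_saF τ hG]
    clear hG
    unfold ChevalleyDatum.negUnipotent at hx
    induction hx using Subgroup.closure_induction with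
    | mem x hx =>
      obtain ⟨r, t, hr, hz⟩ := hx
      rw [g.isNeg_iff] at hr
      rw [g.X_iff] at hz
      have : glF D.Idx τ x = g.X r (τ t) := by rw [hz]; exact Units.ext (x_map D τ r t)
      rw [this]
      exact g.X_mem_V hr _
    | one => rw [map_one]; exact Subgroup.one_mem _
    | mul x y _ _ hx hy => rw [map_mul]; exact Subgroup.mul_mem _ hx hy
    | inv x _ hx => rw [map_inv]; exact Subgroup.inv_mem _ hx
  refine ⟨g.V_le_G, g.V_le_G, fun x hx => ⟨key _ x, fun h => ?_⟩⟩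
  have h2 := key τ.symm _ h
  have h3 : ex (g.saF τ.symm) (ex (g.saF τ) x) = x := by
    rw [← g.saF_symm, ex_symm _ hx]
  rwa [h3] at h2

/-- distinct fundamental root subgroups -/
theorem sa_sim_disj {i j : ℕ} (hi : i < T.l) (hj : j < T.l) {t u : F} (ht : t ≠ 0) (h : g.X (T.sim i) t = g.X (T.sim j) u) : i = j := by
  by_contra hij
  have hev := g.even
  have hsi := g.sim_lt hi
  have hsj := g.sim_lt hj
  have h1 : g.X (T.sim i) t ∈ g.Up i := by
    rw [h]
    exact g.X_mem_Up (g.sim_pos hj) hsj (fun h => hij (g.sa_sim_inj hj hi h).symm) u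
  have h2 := g.Up_le_U i (g.Up_nn hi h1)
  rw [g.nn_X_conj hi hsi, g.w_sim hi, g.eta_sim hi] at h2
  have hp := g.sim_pos hi
  have h3 := g.U_inf_V h2 (g.X_mem_V (by omega) _)
  rw [g.X_eq_one (by omega)] at h3
  apply ht
  simpa using h3

/-- the normal form of an automorphism preserving U and V -/
theorem sa_main' [Finite F] (hcl : SAC T F) (θ : D.group F ≃* D.group F) :
    ∃ (c : D.group F) (b : ℕ → Fˣ) (ρ : Equiv.Perm (Fin T.l)) (τ : F ≃+* F) (γ : D.group F ≃* D.group F),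
      g.IsGr γ ρ ∧
      (∀ i j : Fin T.l, i ≠ j → T.A (ρ i) (T.sim (ρ j)) * T.A (ρ j) (T.sim (ρ i)) = T.A i (T.sim j) * T.A j (T.sim i)) ∧
      θ = (((g.saF τ).trans γ).trans (g.saD b)).trans (inn c) := by
  have hev := g.even
  obtain ⟨c, hU, hV⟩ := g.sa_red θ
  obtain ⟨ρ, hρ⟩ := g.sa_simple hU hV
  choose f0 hx0 using fun i => (hρ i).1
  choose f0' hy0 using fun i => (hρ i).2
  have hne : ∀ i, f0 i 1 ≠ 0 := by
    intro i h
    have := g.sa_f_inj (g.sim_lt i.2) (hx0 i) (a₁ := 1) (a₂ := 0) (by rw [h, g.sa_f_zero (g.sim_lt (ρ i).2) (hx0 i)])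
    exact one_ne_zero this
  let b : ℕ → Fˣ := fun j => if h : j < T.l then Units.mk0 (f0 (ρ.symm ⟨j, h⟩) 1) (hne _) else 1
  have hb : ∀ i : Fin T.l, ((chi T b (T.sim (ρ i)) : Fˣ) : F) = f0 i 1 := by
    intro i
    rw [g.chi_sim b (ρ i).2]
    show ((if h : (ρ i : ℕ) < T.l then Units.mk0 (f0 (ρ.symm ⟨ρ i, h⟩) 1) (hne _) else 1 : Fˣ) : F) = _
    rw [dif_pos (ρ i).2]
    simp
  set θ2 := (θ.trans (inn c)).trans (g.saD b).symm with hθ2
  have hx : ∀ i : Fin T.l, ∀ t, ex θ2 (g.X (T.sim i) t) = g.X (T.sim (ρ i)) ((f0 i 1)⁻¹ * f0 i t) := by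
    intro i t
    rw [hθ2, ex_trans _ _ (g.X_mem_G _ _), hx0, g.ex_saD_symm_X b (g.sim_lt (ρ i).2), hb]
  have hy : ∀ i : Fin T.l, ∀ t, ex θ2 (g.X (T.n - 1 - T.sim i) t) = g.X (T.n - 1 - T.sim (ρ i))
      ((chi T b (T.n - 1 - T.sim (ρ i)) : F)⁻¹ * f0' i t) := by
    intro i t
    have := g.sim_lt (ρ i).2
    rw [hθ2, ex_trans _ _ (g.X_mem_G _ _), hy0, g.ex_saD_symm_X b (by omega)]
  have h1 : ∀ i : Fin T.l, (f0 i 1)⁻¹ * f0 i 1 = 1 := fun i => inv_mul_cancel₀ (hne i)
  have hU2 : Mp θ2 (D.posUnipotent F) (D.posUnipotent F) := hU.trans (g.sa_Mp_U b).symm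
  have hV2 : Mp θ2 (D.negUnipotent F) (D.negUnipotent F) := hV.trans (g.sa_Mp_V b).symm
  have hB2 : Mp θ2 (D.borelSubgroup F) (D.borelSubgroup F) := by
    have := hU2.norm
    rwa [g.sa_norm_U] at this
  obtain ⟨σ, hσ1, hσ2, hrel⟩ := g.sa_field hx hy h1
  obtain ⟨⟨τ, hτ⟩, hbonds⟩ := hcl ρ σ (fun i j hij hA => g.sa_adj hB2 hx hy h1 hij hA) hrel
  refine ⟨c⁻¹, b, ρ, τ, (g.saF τ.symm).trans θ2, ⟨?_, ?_, ?_, ?_⟩, hbonds, ?_⟩
  · intro i t
    rw [ex_trans _ _ (g.X_mem_G _ _), g.ex_saF_X, hx, hσ1, hτ, τ.apply_symm_apply]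
    rfl
  · intro i t
    rw [ex_trans _ _ (g.X_mem_G _ _), g.ex_saF_X, hy, hσ2, hτ, τ.apply_symm_apply]
    rfl
  · exact (g.sa_Mp_FU _).trans hU2
  · exact (g.sa_Mp_FV _).trans hV2
  · apply MulEquiv.ext
    intro y
    have e1 : (g.saF τ.symm) (g.saF τ y) = y := by
      rw [← g.saF_symm, MulEquiv.symm_apply_apply]
    show θ y = c⁻¹ * g.saD b ((g.saD b).symm (c * θ (g.saF τ.symm (g.saF τ y)) * c⁻¹)) * (c⁻¹)⁻¹
    rw [e1, MulEquiv.apply_symm_apply]
    group

/-- uniqueness of the normal form modulo inner automorphisms -/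
theorem sa_uniq [Finite F] (hl : 0 < T.l) {γ γ' : D.group F ≃* D.group F} {ρ ρ' : Equiv.Perm (Fin T.l)} (h : g.IsGr γ ρ) (h' : g.IsGr γ' ρ')
    {b b' : ℕ → Fˣ} {τ τ' : F ≃+* F} {c : D.group F}
    (he : ((g.saF τ).trans γ).trans (g.saD b) = (((g.saF τ').trans γ').trans (g.saD b')).trans (inn c)) :
    ρ = ρ' ∧ τ = τ' ∧ tor D T (fun j => b j / b' j) ∈ D.diagonalSubgroup F := by
  have hev := g.even
  have hcU : Mp (inn c) (D.posUnipotent F) (D.posUnipotent F) := by
    have e1 : Mp (((g.saF τ).trans γ).trans (g.saD b)) (D.posUnipotent F) (D.posUnipotent F) :=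
      ((g.sa_Mp_FU τ).trans h.hU).trans (g.sa_Mp_U b)
    have e2 : Mp (((g.saF τ').trans γ').trans (g.saD b')) (D.posUnipotent F) (D.posUnipotent F) :=
      ((g.sa_Mp_FU τ').trans h'.hU).trans (g.sa_Mp_U b')
    have e3 := e2.symm.trans e1
    have e4 : (((g.saF τ').trans γ').trans (g.saD b')).symm.trans (((g.saF τ).trans γ).trans (g.saD b)) = inn c := by
      rw [he]
      apply MulEquiv.ext
      intro y
      simp only [MulEquiv.trans_apply]
      rw [show (g.saD b') (γ' ((g.saF τ') ((((g.saF τ').trans γ').trans (g.saD b')).symm y))) =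
        (((g.saF τ').trans γ').trans (g.saD b')) ((((g.saF τ').trans γ').trans (g.saD b')).symm y) from rfl, MulEquiv.apply_symm_apply]
    rwa [e4] at e3
  have hcV : Mp (inn c) (D.negUnipotent F) (D.negUnipotent F) := by
    have e1 : Mp (((g.saF τ).trans γ).trans (g.saD b)) (D.negUnipotent F) (D.negUnipotent F) :=
      ((g.sa_Mp_FV τ).trans h.hV).trans (g.sa_Mp_V b)
    have e2 : Mp (((g.saF τ').trans γ').trans (g.saD b')) (D.negUnipotent F) (D.negUnipotent F) :=
      ((g.sa_Mp_FV τ').trans h'.hV).trans (g.sa_Mp_V b')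
    have e3 := e2.symm.trans e1
    have e4 : (((g.saF τ').trans γ').trans (g.saD b')).symm.trans (((g.saF τ).trans γ).trans (g.saD b)) = inn c := by
      rw [he]
      apply MulEquiv.ext
      intro y
      simp only [MulEquiv.trans_apply]
      rw [show (g.saD b') (γ' ((g.saF τ') ((((g.saF τ').trans γ').trans (g.saD b')).symm y))) =
        (((g.saF τ').trans γ').trans (g.saD b')) ((((g.saF τ').trans γ').trans (g.saD b')).symm y) from rfl, MulEquiv.apply_symm_apply]
    rwa [e4] at e3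
  have hcH : (c : GL D.Idx F) ∈ D.diagonalSubgroup F := by
    have key : ∀ K : Subgroup (GL D.Idx F), Mp (inn c) K K → ∀ y, y ∈ K ↔ (c : GL D.Idx F) * y * (c : GL D.Idx F)⁻¹ ∈ K := by
      intro K hK y
      constructor
      · intro hy
        have := hK.mem hy
        rwa [ex_inn c (hK.1 hy)] at this
      · intro hy
        have hyG : y ∈ D.group F := by
          have := Subgroup.mul_mem _ (Subgroup.mul_mem _ (Subgroup.inv_mem _ c.2) (hK.1 hy)) c.2
          have e : (c : GL D.Idx F)⁻¹ * (c * y * (c : GL D.Idx F)⁻¹) * c = y := by group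
          rwa [e] at this
        rw [hK.2.2 y hyG, ex_inn c hyG]
        exact hy
    exact g.sa_norm_UV c.2 (key _ hcU) (key _ hcV)
  obtain ⟨χ, hχ, hcχ, hX⟩ := g.H_X hcH
  have hsim : ∀ i : Fin T.l, ∀ t : F, g.X (T.sim (ρ i)) ((b (ρ i) : F) * (τ t) ^ saE T F ρ i) =
      g.X (T.sim (ρ' i)) ((χ (T.sim (ρ' i)) : F) * ((b' (ρ' i) : F) * (τ' t) ^ saE T F ρ' i)) := by
    intro i t
    have e := congrArg (fun φ => ex φ (g.X (T.sim i) t)) he
    rw [ex_trans _ _ (g.X_mem_G _ _), ex_trans _ _ (g.X_mem_G _ _), ex_trans _ _ (g.X_mem_G _ _), ex_trans _ _ (g.X_mem_G _ _),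
      ex_trans _ _ (g.X_mem_G _ _), g.ex_saF_X, g.ex_saF_X, h.hx, h'.hx, g.ex_saD_X _ (g.sim_lt (ρ i).2),
      g.ex_saD_X _ (g.sim_lt (ρ' i).2), ex_inn c (g.X_mem_G _ _), hX _ (g.sim_lt (ρ' i).2), g.chi_sim _ (ρ i).2,
      g.chi_sim _ (ρ' i).2] at e
    exact e
  have hρ : ρ = ρ' := by
    apply Equiv.ext
    intro i
    apply Fin.ext
    have := hsim i 1
    rw [map_one, one_pow, mul_one] at this
    exact g.sa_sim_disj (ρ i).2 (ρ' i).2 (Units.ne_zero _) this
  subst hρ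
  have hbb : ∀ j : Fin T.l, (b j : F) = (χ (T.sim j) : F) * (b' j : F) := by
    intro j
    have := hsim (ρ.symm j) 1
    rw [map_one, map_one, one_pow, mul_one, mul_one, Equiv.apply_symm_apply] at this
    exact g.X_inj (g.sim_lt j.2) this
  refine ⟨rfl, ?_, ?_⟩
  · apply RingEquiv.ext
    intro t
    have e := g.X_inj (g.sim_lt (ρ ⟨0, hl⟩).2) (hsim ⟨0, hl⟩ t)
    rw [← mul_assoc, ← hbb (ρ ⟨0, hl⟩)] at e
    have e2 := mul_left_cancel₀ (Units.ne_zero _) e
    rcases saE_cases (F := F) ρ ⟨0, hl⟩ with h1 | h1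
    · rw [h1, pow_one, pow_one] at e2; exact e2
    · rw [h1] at e2; exact pow_inj_of_finite e2
  · have : tor D T (fun j => b j / b' j) = (c : GL D.Idx F) := by
      rw [hcχ]
      unfold tor
      apply dg_congr
      intro r hr
      rw [g.hn] at hr
      obtain ⟨a, ha⟩ := g.mem_H.1 hcH
      rw [g.hel_eq_tor] at ha
      have h2 : ∀ r < T.n, χ r = chi T _ r := fun r hr => dg_inj (hcχ.symm.trans ha) r (by rw [g.hn]; exact hr)
      rw [h2 r hr]
      unfold chi
      apply Finset.prod_congr rfl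
      intro j hj
      rw [Finset.mem_range] at hj
      congr 1
      have h3 := hbb ⟨j, hj⟩
      have h4 := h2 (T.sim j) (g.sim_lt hj)
      rw [g.chi_sim _ hj] at h4
      rw [div_eq_iff_eq_mul]
      apply Units.ext
      show (b j : F) = ((hchi T a (T.sim j) : Fˣ) : F) * (b' j : F)
      rw [← h4]
      exact h3
    rw [this]
    exact hcH

end Mat

end Good3

end CfsgLib.Chev
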