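import Cfsg.Agent.LibSB2

set_option autoImplicit false
set_option maxRecDepth 1000000

/-! Automorphisms of Chevalley groups: the order of the outer automorphism group -/

namespace CfsgLib.SA

theorem out_eq_iff {Γ : Type*} [Group Γ] {G : Subgroup Γ} (A B : MulAut G) :
    (QuotientGroup.mk A : Cfsg.Out G) = QuotientGroup.mk B ↔ ∃ c : G, (B : G ≃* G) = MulEquiv.trans A (inn c) := by
  rw [QuotientGroup.eq]
  constructor
  · rintro ⟨c, hc⟩
    refine ⟨A c, ?_⟩
    apply MulEquiv.ext
    intro y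
    have h1 : B = A * MulAut.conj c := by rw [hc]; group
    rw [h1]
    show A (c * y * c⁻¹) = A c * A y * (A c)⁻¹
    rw [map_mul, map_mul, map_inv]
  · rintro ⟨c, hc⟩
    refine ⟨A⁻¹ c, ?_⟩
    apply MulEquiv.ext
    intro y
    show A⁻¹ c * y * (A⁻¹ c)⁻¹ = A⁻¹ (B y)
    rw [hc]
    show _ = A⁻¹ (c * A y * c⁻¹)
    rw [map_mul, map_mul, map_inv]
    congr 2
    exact (A.symm_apply_apply y).symm

/-- the automorphism group of a finite field -/
def ringEquivEquiv (p : ℕ) (F : Type*) [Field F] [Algebra (ZMod p) F] : (F ≃ₐ[ZMod p] F) ≃* (F ≃+* F) where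
  toFun σ := σ.toRingEquiv
  invFun σ := AlgEquiv.ofRingEquiv (f := σ) (fun x => by
    have : (σ : F →+* F).comp (algebraMap (ZMod p) F) = algebraMap (ZMod p) F := Subsingleton.elim _ _
    exact congrArg (fun g : ZMod p →+* F => g x) this)
  left_inv σ := rfl
  right_inv σ := rfl
  map_mul' σ τ := rfl

theorem gal_card {F : Type*} [Field F] [Finite F] (p f : ℕ) [Fact p.Prime] (hF : Nat.card F = p ^ f) :
    IsCyclic (F ≃+* F) ∧ Nat.card (F ≃+* F) = f := by
  let _ := Fintype.ofFinite F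
  have hF' : Fintype.card F = p ^ f := by rw [← Nat.card_eq_fintype_card, hF]
  have : CharP F p := charP_of_card_eq_prime_pow hF'
  letI : Algebra (ZMod p) F := ZMod.algebra F p
  have hfr : Module.finrank (ZMod p) F = f := by
    have h1 := Module.card_eq_pow_finrank (K := ZMod p) (V := F)
    rw [hF', ZMod.card] at h1
    exact (Nat.pow_right_injective (Fact.out : p.Prime).two_le h1).symm
  have : IsCyclic (F ≃ₐ[ZMod p] F) := inferInstance
  refine ⟨isCyclic_of_surjective (ringEquivEquiv p F) (ringEquivEquiv p F).surjective, ?_⟩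
  rw [← Nat.card_congr (ringEquivEquiv p F).toEquiv, ← Nat.card_congr (Equiv.ofBijective _ (FiniteField.bijective_frobeniusAlgEquivOfAlgebraic_pow (ZMod p) F)),
    Nat.card_eq_fintype_card, Fintype.card_fin, hfr]

end CfsgLib.SA

namespace CfsgLib.Chev

open Cfsg.Lie CfsgLib.SA

namespace Good3

variable {D : ChevalleyDatum} {T : Tb} (g : Good3 D T)
include g

section Mat
variable {F : Type*} [Field F]

omit g in
theorem tor_congr {a b : ℕ → Fˣ} (h : ∀ j < T.l, a j = b j) : tor D T a = tor D T b := by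
  unfold tor
  apply dg_congr
  intro r _
  unfold chi
  apply Finset.prod_congr rfl
  intro j hj
  rw [h j (Finset.mem_range.1 hj)]

theorem tor_inj {a b : ℕ → Fˣ} (h : tor D T a = tor D T b) : ∀ j < T.l, a j = b j := by
  intro j hj
  have h1 := dg_inj h (T.sim j) (by rw [g.hn]; exact g.sim_lt hj)
  rwa [g.chi_sim _ hj, g.chi_sim _ hj] at h1

/-- the torus of diagonal automorphisms -/
noncomputable def torHom (D : ChevalleyDatum) (T : Tb) (F : Type*) [Field F] : (Fin T.l → Fˣ) →* GL D.Idx F where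
  toFun b := tor D T (ext1 b)
  map_one' := by
    have : (ext1 (1 : Fin T.l → Fˣ)) = fun _ => 1 := by
      ext i; unfold ext1; split_ifs <;> simp
    rw [this]
    unfold tor
    rw [← dg_one (D := D)]
    apply dg_congr
    intro r _
    unfold chi
    simp
  map_mul' a b := by
    rw [sa_tor_mul]
    apply tor_congr
    intro j hj
    unfold ext1
    rw [dif_pos hj, dif_pos hj, dif_pos hj]
    rfl

theorem torHom_inj : Function.Injective (torHom D T F) := by
  intro a b h
  funext j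
  have := g.tor_inj h j j.2
  unfold ext1 at this
  rw [dif_pos j.2, dif_pos j.2] at this
  exact this

theorem H_le_range : D.diagonalSubgroup F ≤ (torHom D T F).range := by
  intro x hx
  obtain ⟨a, rfl⟩ := g.mem_H.1 hx
  rw [g.hel_eq_tor]
  refine ⟨fun j => hchi T a (T.sim j), ?_⟩
  apply tor_congr
  intro j hj
  unfold ext1
  rw [dif_pos hj]

/-- the diagonal parameters of inner automorphisms -/
noncomputable def KH (D : ChevalleyDatum) (T : Tb) (F : Type*) [Field F] : Subgroup (Fin T.l → Fˣ) := (D.diagonalSubgroup F).comap (torHom D T F)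

theorem card_KH : Nat.card (KH D T F) = Nat.card (D.diagonalSubgroup F) := by
  have h1 : (KH D T F).map (torHom D T F) = D.diagonalSubgroup F := Subgroup.map_comap_eq_self g.H_le_range
  rw [← h1]
  exact Nat.card_congr ((KH D T F).equivMapOfInjective _ g.torHom_inj).toEquiv

theorem card_quot [Fintype F] : Nat.card ((Fin T.l → Fˣ) ⧸ KH D T F) * Nat.card (D.diagonalSubgroup F) = (Fintype.card F - 1) ^ T.l := by
  rw [← g.card_KH, ← Subgroup.card_eq_card_quotient_mul_card_subgroup, Nat.card_fun, Nat.card_units, Nat.card_eq_fintype_card]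
  simp

theorem saD_congr {a b : ℕ → Fˣ} (h : ∀ j < T.l, a j = b j) : g.saD a = g.saD b := by
  have h1 := tor_congr (D := D) h
  apply MulEquiv.ext
  intro x
  apply Subtype.ext
  rw [← ex_coe, ← ex_coe, g.ex_saD a x.2, g.ex_saD b x.2, h1]

/-- diagonal automorphisms differing by an element of H -/
theorem saD_H {a b : ℕ → Fˣ} (h : tor D T (fun j => a j / b j) ∈ D.diagonalSubgroup F) : ∃ c : D.group F, g.saD a = (g.saD b).trans (inn c) := by
  refine ⟨⟨_, H_le_G g h⟩, ?_⟩
  apply MulEquiv.ext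
  intro x
  apply Subtype.ext
  have h1 : tor D T a = tor D T (fun j => a j / b j) * tor D T b := by
    rw [sa_tor_mul]
    apply tor_congr
    intro j _
    rw [div_mul_cancel]
  have e1 := g.ex_saD a x.2
  rw [ex_coe] at e1
  have e2 := g.ex_saD b x.2
  rw [ex_coe] at e2
  show ((g.saD a x : D.group F) : GL D.Idx F) = tor D T (fun j => a j / b j) * ((g.saD b x : D.group F) : GL D.Idx F) * (tor D T (fun j => a j / b j))⁻¹
  rw [e1, e2, h1]
  group

/-- the order of the outer automorphism group -/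
theorem out_card [Finite F] (hcl : SAC T F) (hl : 0 < T.l) :
    Nat.card (Cfsg.Out ↥(D.group F)) = Nat.card ((Fin T.l → Fˣ) ⧸ KH D T F) *
      (Nat.card {ρ : Equiv.Perm (Fin T.l) // ∃ γ : D.group F ≃* D.group F, g.IsGr γ ρ} * Nat.card (F ≃+* F)) := by
  classical
  let R := {ρ : Equiv.Perm (Fin T.l) // ∃ γ : D.group F ≃* D.group F, g.IsGr γ ρ}
  have hR : ∀ ρ : R, g.IsGr (Classical.choose ρ.2) ρ.1 := fun ρ => Classical.choose_spec ρ.2
  let Ψ : ((Fin T.l → Fˣ) ⧸ KH D T F) × (R × (F ≃+* F)) → Cfsg.Out ↥(D.group F) := fun q =>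
    QuotientGroup.mk ((((g.saF q.2.2).trans (Classical.choose q.2.1.2)).trans (g.saD (ext1 q.1.out)) : D.group F ≃* D.group F) : MulAut ↥(D.group F))
  rw [← Nat.card_prod, ← Nat.card_prod]
  symm
  apply Nat.card_congr (Equiv.ofBijective Ψ ⟨?_, ?_⟩)
  · rintro ⟨q, ρ, τ⟩ ⟨q', ρ', τ'⟩ h
    have h1 := (out_eq_iff _ _).1 h.symm
    obtain ⟨c, hc⟩ := h1
    obtain ⟨e1, e2, e3⟩ := g.sa_uniq hl (hR ρ) (hR ρ') hc
    have e4 : q = q' := by
      rw [← QuotientGroup.out_eq' q, ← QuotientGroup.out_eq' q', eq_comm, QuotientGroup.eq]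
      show torHom D T F _ ∈ D.diagonalSubgroup F
      have : torHom D T F (q'.out⁻¹ * q.out) = tor D T (fun j => ext1 q.out j / ext1 q'.out j) := by
        apply tor_congr
        intro j hj
        unfold ext1
        rw [dif_pos hj, dif_pos hj, dif_pos hj, Pi.mul_apply, Pi.inv_apply, div_eq_mul_inv, mul_comm]
      rw [this]
      exact e3
    rw [Prod.mk.injEq, Prod.mk.injEq]
    exact ⟨e4, Subtype.ext e1, e2⟩
  · intro o
    obtain ⟨θ, rfl⟩ := QuotientGroup.mk_surjective o
    obtain ⟨c, b, ρ, τ, γ, hγ, _, he⟩ := g.sa_main' hcl θ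
    let q : (Fin T.l → Fˣ) ⧸ KH D T F := QuotientGroup.mk (fun j : Fin T.l => b j)
    refine ⟨(q, ⟨ρ, γ, hγ⟩, τ), ?_⟩
    have hγ' : Classical.choose (⟨γ, hγ⟩ : ∃ γ : D.group F ≃* D.group F, g.IsGr γ ρ) = γ :=
      (Classical.choose_spec (⟨γ, hγ⟩ : ∃ γ : D.group F ≃* D.group F, g.IsGr γ ρ)).unique hγ
    show (QuotientGroup.mk ((((g.saF τ).trans (Classical.choose (⟨γ, hγ⟩ : ∃ γ : D.group F ≃* D.group F, g.IsGr γ ρ))).trans (g.saD (ext1 q.out)) : D.group F ≃* D.group F) : MulAut ↥(D.group F)) : Cfsg.Out ↥(D.group F)) = _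
    rw [hγ', out_eq_iff]
    have hq : q.out⁻¹ * (fun j : Fin T.l => b j) ∈ KH D T F := by
      rw [← QuotientGroup.eq, QuotientGroup.out_eq']
    have hq' : tor D T (fun j => b j / ext1 q.out j) ∈ D.diagonalSubgroup F := by
      have h1 : torHom D T F (q.out⁻¹ * (fun j : Fin T.l => b j)) ∈ D.diagonalSubgroup F := hq
      have : torHom D T F (q.out⁻¹ * (fun j : Fin T.l => b j)) = tor D T (fun j => b j / ext1 q.out j) := by
        apply tor_congr
        intro j hj
        unfold ext1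
        rw [dif_pos hj, dif_pos hj, Pi.mul_apply, Pi.inv_apply, div_eq_mul_inv, mul_comm]
      rwa [this] at h1
    obtain ⟨c', hc'⟩ := g.saD_H hq'
    refine ⟨c * c', ?_⟩
    rw [he, hc']
    apply MulEquiv.ext
    intro y
    show c * (c' * _ * c'⁻¹) * c⁻¹ = (c * c') * _ * (c * c')⁻¹
    group
    rfl

end Mat

end Good3

end CfsgLib.Chev
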