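import Cfsg.Agent.LibSB3
import Cfsg.Agent.LibChevSmith

set_option autoImplicit false
set_option maxRecDepth 1000000

/-! Automorphisms of Chevalley groups: diagram permutations -/

namespace CfsgLib.Chev

open Cfsg.Lie CfsgLib.SA

namespace Good3

variable {D : ChevalleyDatum} {T : Tb} (g : Good3 D T)
include g

section Mat
variable {F : Type*} [Field F]

variable {g} in
theorem IsGr.one_iff : g.IsGr (MulEquiv.refl (D.group F)) 1 := by
  have he : ∀ i, saE T F (1 : Equiv.Perm (Fin T.l)) i = 1 := by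
    intro i
    unfold saE
    simp
  have hex : ∀ x ∈ D.group F, ex (MulEquiv.refl (D.group F)) x = x := by
    intro x hx
    rw [ex_of_mem _ hx]
    rfl
  refine ⟨?_, ?_, ⟨g.U_le_G, g.U_le_G, ?_⟩, ⟨g.V_le_G, g.V_le_G, ?_⟩⟩
  · intro i t
    rw [hex _ (g.X_mem_G _ _), he, pow_one]
    rfl
  · intro i t
    rw [hex _ (g.X_mem_G _ _), he, pow_one]
    rfl
  · intro x hx; rw [hex x hx]
  · intro x hx; rw [hex x hx]

variable {g} in
theorem IsGr.adj {γ : D.group F ≃* D.group F} {ρ : Equiv.Perm (Fin T.l)} (h : g.IsGr γ ρ) {i j : Fin T.l} (hij : i ≠ j)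
    (hA : T.A i (T.sim j) = 0) : T.A (ρ i) (T.sim (ρ j)) = 0 := by
  have hB : Mp γ (D.borelSubgroup F) (D.borelSubgroup F) := by
    have := h.hU.norm
    rwa [g.sa_norm_U] at this
  exact g.sa_adj hB h.hx h.hy (fun i => one_pow _) hij hA

variable {g} in
theorem IsGr.field [Finite F] {γ : D.group F ≃* D.group F} {ρ : Equiv.Perm (Fin T.l)} (h : g.IsGr γ ρ) :
    ∃ σ : Fin T.l → (F ≃+* F), (∀ i t, t ^ saE T F ρ i = σ i t) ∧
      ∀ (i j : Fin T.l) (c : F), c ≠ 0 → (σ j c) ^ (T.A i (T.sim j)) = (σ i c) ^ (T.A (ρ i) (T.sim (ρ j))) := by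
  obtain ⟨σ, h1, _, h3⟩ := g.sa_field h.hx h.hy (fun i => one_pow _)
  exact ⟨σ, h1, h3⟩

theorem card_R_one [Finite F] (h : ∀ (ρ : Equiv.Perm (Fin T.l)) (γ : D.group F ≃* D.group F), g.IsGr γ ρ → ρ = 1) :
    Nat.card {ρ : Equiv.Perm (Fin T.l) // ∃ γ : D.group F ≃* D.group F, g.IsGr γ ρ} = 1 := by
  rw [Nat.card_eq_one_iff_unique]
  refine ⟨⟨?_⟩, ⟨⟨1, _, IsGr.one_iff⟩⟩⟩
  rintro ⟨a, γ, ha⟩ ⟨b, γ', hb⟩
  have h1 := h a γ ha
  have h2 := h b γ' hb
  subst h1 h2
  rfl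

theorem card_R_two [Finite F] {s : Equiv.Perm (Fin T.l)} (hs : s ≠ 1) {γs : D.group F ≃* D.group F} (hγs : g.IsGr γs s)
    (h : ∀ (ρ : Equiv.Perm (Fin T.l)) (γ : D.group F ≃* D.group F), g.IsGr γ ρ → ρ = 1 ∨ ρ = s) :
    Nat.card {ρ : Equiv.Perm (Fin T.l) // ∃ γ : D.group F ≃* D.group F, g.IsGr γ ρ} = 2 := by
  have e : {ρ : Equiv.Perm (Fin T.l) // ∃ γ : D.group F ≃* D.group F, g.IsGr γ ρ} ≃ Bool :=
    { toFun := fun ρ => by classical exact decide (ρ.1 = s)
      invFun := fun b => match b with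
        | true => ⟨s, γs, hγs⟩
        | false => ⟨1, _, IsGr.one_iff⟩
      left_inv := by
        rintro ⟨ρ, γ, hγ⟩
        rcases h ρ γ hγ with rfl | rfl
        · have : decide ((1 : Equiv.Perm (Fin T.l)) = s) = false := by simp [Ne.symm hs]
          simp [Ne.symm hs]
        · simp
      right_inv := by
        intro b
        cases b <;> simp [Ne.symm hs] }
  rw [Nat.card_congr e]
  simp

end Mat

end Good3

/-- adjacency is preserved in both directions -/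
theorem adj_iff_of {n : ℕ} {P : Fin n → Fin n → Prop} {ρ : Equiv.Perm (Fin n)} (h : ∀ i j, i ≠ j → P i j → P (ρ i) (ρ j)) (i j : Fin n)
    (hij : i ≠ j) : P i j ↔ P (ρ i) (ρ j) := by
  have hS : Function.Injective (fun q : {q : Fin n × Fin n // q.1 ≠ q.2 ∧ P q.1 q.2} =>
      (⟨(ρ q.1.1, ρ q.1.2), fun h => q.2.1 (ρ.injective h), h _ _ q.2.1 q.2.2⟩ :
        {q : Fin n × Fin n // q.1 ≠ q.2 ∧ P q.1 q.2})) := by
    rintro ⟨⟨a, b⟩, h1⟩ ⟨⟨c, d⟩, h2⟩ h
    simp only [Subtype.mk.injEq, Prod.mk.injEq, EmbeddingLike.apply_eq_iff_eq] at h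
    simp only [Subtype.mk.injEq, Prod.mk.injEq]
    exact h
  have hS' := (Finite.injective_iff_surjective.1 hS)
  refine ⟨h i j hij, fun h' => ?_⟩
  obtain ⟨⟨⟨a, b⟩, h1⟩, h2⟩ := hS' ⟨(ρ i, ρ j), fun h => hij (ρ.injective h), h'⟩
  simp only [Subtype.mk.injEq, Prod.mk.injEq, EmbeddingLike.apply_eq_iff_eq] at h2
  obtain ⟨rfl, rfl⟩ := h2
  exact h1.2

/-- adjacency as a Boolean function -/
def aE6 : Fin 6 → Fin 6 → Bool := ![![false, false, true, false, false, false], ![false, false, false, true, false, false], ![true, false, false, true, false, false],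
  ![false, true, true, false, true, false], ![false, false, false, true, false, true], ![false, false, false, false, true, false]]
def aE7 : Fin 7 → Fin 7 → Bool := ![![false, false, true, false, false, false, false], ![false, false, false, true, false, false, false],
  ![true, false, false, true, false, false, false], ![false, true, true, false, true, false, false], ![false, false, false, true, false, true, false],
  ![false, false, false, false, true, false, true], ![false, false, false, false, false, true, false]]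
def aE8 : Fin 8 → Fin 8 → Bool := ![![false, false, true, false, false, false, false, false], ![false, false, false, true, false, false, false, false],
  ![true, false, false, true, false, false, false, false], ![false, true, true, false, true, false, false, false], ![false, false, false, true, false, true, false, false],
  ![false, false, false, false, true, false, true, false], ![false, false, false, false, false, true, false, true], ![false, false, false, false, false, false, true, false]]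

theorem am_E6 : ∀ i j : Fin 6, i ≠ j → (decide (tE6.A i (tE6.sim j) = 0) = !aE6 i j) := by decide +kernel
theorem am_E7 : ∀ i j : Fin 7, i ≠ j → (decide (tE7.A i (tE7.sim j) = 0) = !aE7 i j) := by decide +kernel
theorem am_E8 : ∀ i j : Fin 8, i ≠ j → (decide (tE8.A i (tE8.sim j) = 0) = !aE8 i j) := by decide +kernel

theorem all_fin {n : ℕ} {f : Fin n → Bool} (h : (List.finRange n).all f = true) (a : Fin n) : f a = true :=
  List.all_eq_true.1 h a (List.mem_finRange a)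

theorem or_imp' {a b : Bool} (h : (!a || b) = true) (ha : a = true) : b = true := by
  subst ha; simpa using h

def srE6 : Bool := (List.finRange 6).all fun a3 => (List.finRange 6).all fun a2 => !(a2 != a3 && aE6 a3 a2) ||
  (List.finRange 6).all fun a4 => !(a4 != a3 && a4 != a2 && aE6 a3 a4) ||
  (List.finRange 6).all fun a1 => !(a1 != a3 && a1 != a2 && a1 != a4 && aE6 a3 a1) ||
  (List.finRange 6).all fun a0 => !(a0 != a3 && a0 != a2 && a0 != a4 && a0 != a1 && aE6 a2 a0) ||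
  (List.finRange 6).all fun a5 => !(a5 != a3 && a5 != a2 && a5 != a4 && a5 != a1 && a5 != a0 && aE6 a4 a5) ||
    decide ((a0 = 0 ∧ a1 = 1 ∧ a2 = 2 ∧ a3 = 3 ∧ a4 = 4 ∧ a5 = 5) ∨ (a0 = 5 ∧ a1 = 1 ∧ a2 = 4 ∧ a3 = 3 ∧ a4 = 2 ∧ a5 = 0))
theorem srE6_ok : srE6 = true := by decide +kernel

def srE7 : Bool := (List.finRange 7).all fun a3 => (List.finRange 7).all fun a2 => !(a2 != a3 && aE7 a3 a2) ||
  (List.finRange 7).all fun a4 => !(a4 != a3 && a4 != a2 && aE7 a3 a4) ||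
  (List.finRange 7).all fun a1 => !(a1 != a3 && a1 != a2 && a1 != a4 && aE7 a3 a1) ||
  (List.finRange 7).all fun a0 => !(a0 != a3 && a0 != a2 && a0 != a4 && a0 != a1 && aE7 a2 a0) ||
  (List.finRange 7).all fun a5 => !(a5 != a3 && a5 != a2 && a5 != a4 && a5 != a1 && a5 != a0 && aE7 a4 a5) ||
  (List.finRange 7).all fun a6 => !(a6 != a3 && a6 != a2 && a6 != a4 && a6 != a1 && a6 != a0 && a6 != a5 && aE7 a5 a6) ||
    decide (a0 = 0 ∧ a1 = 1 ∧ a2 = 2 ∧ a3 = 3 ∧ a4 = 4 ∧ a5 = 5 ∧ a6 = 6)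
theorem srE7_ok : srE7 = true := by decide +kernel

def srE8 : Bool := (List.finRange 8).all fun a3 => (List.finRange 8).all fun a2 => !(a2 != a3 && aE8 a3 a2) ||
  (List.finRange 8).all fun a4 => !(a4 != a3 && a4 != a2 && aE8 a3 a4) ||
  (List.finRange 8).all fun a1 => !(a1 != a3 && a1 != a2 && a1 != a4 && aE8 a3 a1) ||
  (List.finRange 8).all fun a0 => !(a0 != a3 && a0 != a2 && a0 != a4 && a0 != a1 && aE8 a2 a0) ||
  (List.finRange 8).all fun a5 => !(a5 != a3 && a5 != a2 && a5 != a4 && a5 != a1 && a5 != a0 && aE8 a4 a5) ||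
  (List.finRange 8).all fun a6 => !(a6 != a3 && a6 != a2 && a6 != a4 && a6 != a1 && a6 != a0 && a6 != a5 && aE8 a5 a6) ||
  (List.finRange 8).all fun a7 => !(a7 != a3 && a7 != a2 && a7 != a4 && a7 != a1 && a7 != a0 && a7 != a5 && a7 != a6 && aE8 a6 a7) ||
    decide (a0 = 0 ∧ a1 = 1 ∧ a2 = 2 ∧ a3 = 3 ∧ a4 = 4 ∧ a5 = 5 ∧ a6 = 6 ∧ a7 = 7)
theorem srE8_ok : srE8 = true := by decide +kernel

theorem perm_E6 (ρ : Equiv.Perm (Fin 6)) (h : ∀ i j : Fin 6, i ≠ j → tE6.A i (tE6.sim j) = 0 → tE6.A (ρ i) (tE6.sim (ρ j)) = 0) :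
    (ρ 0 = 0 ∧ ρ 1 = 1 ∧ ρ 2 = 2 ∧ ρ 3 = 3 ∧ ρ 4 = 4 ∧ ρ 5 = 5) ∨ (ρ 0 = 5 ∧ ρ 1 = 1 ∧ ρ 2 = 4 ∧ ρ 3 = 3 ∧ ρ 4 = 2 ∧ ρ 5 = 0) := by
  have ha : ∀ i j : Fin 6, i ≠ j → aE6 (ρ i) (ρ j) = aE6 i j := by
    intro i j hij
    have h1 := adj_iff_of (P := fun i j : Fin 6 => tE6.A i (tE6.sim j) = 0) h i j hij
    have h2 := am_E6 i j hij
    have h3 := am_E6 (ρ i) (ρ j) (fun h => hij (ρ.injective h))
    rw [← Bool.not_inj_iff, ← h2, ← h3]
    exact decide_eq_decide.2 h1.symm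
  have hne : ∀ i j : Fin 6, i ≠ j → ρ i ≠ ρ j := fun i j hij h => hij (ρ.injective h)
  refine of_decide_eq_true (or_imp' (all_fin (or_imp' (all_fin (or_imp' (all_fin (or_imp' (all_fin (or_imp' (all_fin (all_fin srE6_ok (ρ 3)) (ρ 2)) ?_) (ρ 4)) ?_) (ρ 1)) ?_) (ρ 0)) ?_) (ρ 5)) ?_)
  all_goals
    simp only [Bool.and_eq_true, bne_iff_ne, ne_eq]
    repeat' apply And.intro
    all_goals first
      | exact hne _ _ (by decide)
      | (rw [ha _ _ (by decide)]; decide)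

theorem perm_E7 (ρ : Equiv.Perm (Fin 7)) (h : ∀ i j : Fin 7, i ≠ j → tE7.A i (tE7.sim j) = 0 → tE7.A (ρ i) (tE7.sim (ρ j)) = 0) : ρ = 1 := by
  have ha : ∀ i j : Fin 7, i ≠ j → aE7 (ρ i) (ρ j) = aE7 i j := by
    intro i j hij
    have h1 := adj_iff_of (P := fun i j : Fin 7 => tE7.A i (tE7.sim j) = 0) h i j hij
    have h2 := am_E7 i j hij
    have h3 := am_E7 (ρ i) (ρ j) (fun h => hij (ρ.injective h))
    rw [← Bool.not_inj_iff, ← h2, ← h3]
    exact decide_eq_decide.2 h1.symm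
  have hne : ∀ i j : Fin 7, i ≠ j → ρ i ≠ ρ j := fun i j hij h => hij (ρ.injective h)
  have key : ρ 0 = 0 ∧ ρ 1 = 1 ∧ ρ 2 = 2 ∧ ρ 3 = 3 ∧ ρ 4 = 4 ∧ ρ 5 = 5 ∧ ρ 6 = 6 := by
    refine of_decide_eq_true (or_imp' (all_fin (or_imp' (all_fin (or_imp' (all_fin (or_imp' (all_fin (or_imp' (all_fin (or_imp' (all_fin (all_fin srE7_ok (ρ 3)) (ρ 2)) ?_) (ρ 4)) ?_) (ρ 1)) ?_) (ρ 0)) ?_) (ρ 5)) ?_) (ρ 6)) ?_)
    all_goals
      simp only [Bool.and_eq_true, bne_iff_ne, ne_eq]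
      repeat' apply And.intro
      all_goals first
        | exact hne _ _ (by decide)
        | (rw [ha _ _ (by decide)]; decide)
  apply Equiv.ext
  intro i
  fin_cases i
  · exact key.1
  · exact key.2.1
  · exact key.2.2.1
  · exact key.2.2.2.1
  · exact key.2.2.2.2.1
  · exact key.2.2.2.2.2.1
  · exact key.2.2.2.2.2.2

theorem perm_E8 (ρ : Equiv.Perm (Fin 8)) (h : ∀ i j : Fin 8, i ≠ j → tE8.A i (tE8.sim j) = 0 → tE8.A (ρ i) (tE8.sim (ρ j)) = 0) : ρ = 1 := by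
  have ha : ∀ i j : Fin 8, i ≠ j → aE8 (ρ i) (ρ j) = aE8 i j := by
    intro i j hij
    have h1 := adj_iff_of (P := fun i j : Fin 8 => tE8.A i (tE8.sim j) = 0) h i j hij
    have h2 := am_E8 i j hij
    have h3 := am_E8 (ρ i) (ρ j) (fun h => hij (ρ.injective h))
    rw [← Bool.not_inj_iff, ← h2, ← h3]
    exact decide_eq_decide.2 h1.symm
  have hne : ∀ i j : Fin 8, i ≠ j → ρ i ≠ ρ j := fun i j hij h => hij (ρ.injective h)
  have key : ρ 0 = 0 ∧ ρ 1 = 1 ∧ ρ 2 = 2 ∧ ρ 3 = 3 ∧ ρ 4 = 4 ∧ ρ 5 = 5 ∧ ρ 6 = 6 ∧ ρ 7 = 7 := by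
    refine of_decide_eq_true (or_imp' (all_fin (or_imp' (all_fin (or_imp' (all_fin (or_imp' (all_fin (or_imp' (all_fin (or_imp' (all_fin (or_imp' (all_fin (all_fin srE8_ok (ρ 3)) (ρ 2)) ?_) (ρ 4)) ?_) (ρ 1)) ?_) (ρ 0)) ?_) (ρ 5)) ?_) (ρ 6)) ?_) (ρ 7)) ?_)
    all_goals
      simp only [Bool.and_eq_true, bne_iff_ne, ne_eq]
      repeat' apply And.intro
      all_goals first
        | exact hne _ _ (by decide)
        | (rw [ha _ _ (by decide)]; decide)
  apply Equiv.ext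
  intro i
  fin_cases i
  · exact key.1
  · exact key.2.1
  · exact key.2.2.1
  · exact key.2.2.2.1
  · exact key.2.2.2.2.1
  · exact key.2.2.2.2.2.1
  · exact key.2.2.2.2.2.2.1
  · exact key.2.2.2.2.2.2.2

theorem out_E8 {F : Type*} [Field F] [Fintype F] (p f : ℕ) [Fact p.Prime] (hF : Fintype.card F = p ^ f) :
    Nat.card (Cfsg.Out ↥(Cfsg.Lie.chevE8.group F)) = f := by
  rw [good3_E8.out_card (good4_E8.sac_SL sl_E8) (by decide), good3_E8.card_R_one, (gal_card p f (by rw [Nat.card_eq_fintype_card, hF])).2]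
  · have h1 := good3_E8.card_quot (F := F)
    have h2 := good3_E8.card_H_list (F := F) smith_E8 rfl
    have h3 : ((([-1, -1, -1, -1, -1, -1, -1, -1] : List ℤ).map fun z => Nat.gcd z.natAbs (Fintype.card F - 1)).prod) = 1 := by simp
    rw [h3, one_mul] at h2
    have h4 : (Fintype.card F - 1) ^ chevE8.rank = (Fintype.card F - 1) ^ tE8.l := congrArg _ good3_E8.hl
    rw [h4, ← h1] at h2
    have h5 : 0 < Nat.card (chevE8.diagonalSubgroup F) := Nat.card_pos
    have h6 : Nat.card ((Fin tE8.l → Fˣ) ⧸ Good3.KH chevE8 tE8 F) = 1 :=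
      Nat.eq_of_mul_eq_mul_right h5 (by rw [one_mul]; exact h2.symm)
    rw [h6, one_mul, one_mul]
  · intro ρ γ hγ
    exact perm_E8 ρ (fun i j hij hA => hγ.adj hij hA)

theorem out_E7 {F : Type*} [Field F] [Fintype F] (p f : ℕ) [Fact p.Prime] (hF : Fintype.card F = p ^ f) :
    Nat.card (Cfsg.Out ↥(Cfsg.Lie.chevE7.group F)) = Nat.gcd 2 (p ^ f - 1) * f := by
  rw [good3_E7.out_card (good4_E7.sac_SL sl_E7) (by decide), good3_E7.card_R_one, (gal_card p f (by rw [Nat.card_eq_fintype_card, hF])).2]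
  · have h1 := good3_E7.card_quot (F := F)
    have h2 := good3_E7.card_H_list (F := F) smith_E7 rfl
    have h3 : ((([-1, -1, -1, -1, -1, -1, -2] : List ℤ).map fun z => Nat.gcd z.natAbs (Fintype.card F - 1)).prod) = Nat.gcd 2 (Fintype.card F - 1) := by simp
    rw [h3] at h2
    have h4 : (Fintype.card F - 1) ^ chevE7.rank = (Fintype.card F - 1) ^ tE7.l := congrArg _ good3_E7.hl
    rw [h4, ← h1] at h2
    have h5 : 0 < Nat.card (chevE7.diagonalSubgroup F) := Nat.card_pos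
    have h6 : Nat.card ((Fin tE7.l → Fˣ) ⧸ Good3.KH chevE7 tE7 F) = Nat.gcd 2 (Fintype.card F - 1) :=
      Nat.eq_of_mul_eq_mul_right h5 h2.symm
    rw [h6, one_mul, hF]
  · intro ρ γ hγ
    exact perm_E7 ρ (fun i j hij hA => hγ.adj hij hA)

end CfsgLib.Chev
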