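import Cfsg.Agent.LibSB4
import Cfsg.Agent.LibGraph2

set_option autoImplicit false
set_option maxRecDepth 1000000

/-! Automorphisms of Chevalley groups: existence of graph automorphisms -/

namespace CfsgLib.SA

theorem Mp_of_le {Γ : Type*} [Group Γ] {G : Subgroup Γ} [Finite G] {θ : G ≃* G} {K : Subgroup Γ} (hK : K ≤ G)
    (h : ∀ x ∈ K, ex θ x ∈ K) : Mp θ K K := by
  refine ⟨hK, hK, fun x hx => ⟨h x, fun h' => ?_⟩⟩
  have : Finite K := Finite.of_injective (Subgroup.inclusion hK) (Subgroup.inclusion_injective hK)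
  have hinj : Function.Injective (fun y : K => (⟨ex θ y, h y y.2⟩ : K)) := by
    intro a b hab
    apply Subtype.ext
    exact ex_inj θ (hK a.2) (hK b.2) (congrArg Subtype.val hab)
  obtain ⟨y, hy⟩ := (Finite.injective_iff_surjective.1 hinj) ⟨ex θ x, h'⟩
  have h1 : ex θ y = ex θ x := congrArg Subtype.val hy
  rw [← ex_inj θ (hK y.2) hx h1]
  exact y.2

end CfsgLib.SA

namespace CfsgLib.Chev

open Cfsg.Lie CfsgLib.SA

noncomputable def GD.chkPos (G : GD) (T : Tb) : Bool := allB T.n fun r => !Nat.ble (T.n / 2) r || Nat.ble (T.n / 2) (G.rho r)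

noncomputable def gdD4c : GD := mkGD 566073054096128939321680348723185459246130506873807503616 0 5281877500950955839569596689
theorem gdR_D4c : gdD4c.chkR tD4 = true := by decide +kernel
theorem gdP_D4c : gdD4c.chkP tD4 0 = true := by decide +kernel
theorem gdD4c_ok : gdD4c.OK tD4 0 := ⟨gdR_D4c, gdP_D4c⟩
theorem chkInv_D4c : gdD4c.chkInv gdD4c tD4 = true := by decide +kernel
theorem chkL1_D4c : gdD4c.chkL1 tD4 = true := by decide +kernel
theorem chkS_D4c : gdD4c.chkS tD4 [0, 1, 3, 2] = true := by decide +kernel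

theorem pos_D4a : gdD4a.chkPos tD4 = true := by decide +kernel
theorem pos_D4c : gdD4c.chkPos tD4 = true := by decide +kernel
theorem pos_E6 : gdE6.chkPos tE6 = true := by decide +kernel
theorem pos_G2 : gdG2.chkPos tG2 = true := by decide +kernel
theorem pos_B2 : gdB2.chkPos tB2 = true := by decide +kernel
theorem pos_F4 : gdF4.chkPos tF4 = true := by decide +kernel

namespace Good3

variable {D : ChevalleyDatum} {T : Tb} (g : Good3 D T)
include g

section Mat
variable {F : Type*} [Field F]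

theorem isGr_of_GD [Finite F] {G : GD} {p : ℕ} (k : G.OK T p) {L : List ℕ} (hL : G.chkS T L = true) (hpos : G.chkPos T = true)
    {σ : D.group F ≃* D.group F} (hσ : ∀ (x : ↥(D.group F)) (r : ℕ) (t : F), r < T.n → (x : GL D.Idx F) = g.X r t →
      (σ x : GL D.Idx F) = g.X (G.rho r) ((G.eps r : F) * t ^ G.lam r)) {ρ : Equiv.Perm (Fin T.l)}
    (hρ : ∀ i : Fin T.l, (ρ i : ℕ) = L.getD i 0) (hlam : ∀ i : Fin T.l, G.lam (T.sim i) = saE T F ρ i) : g.IsGr σ ρ := by
  have hev := g.even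
  have hX : ∀ r < T.n, ∀ t : F, ex σ (g.X r t) = g.X (G.rho r) ((G.eps r : F) * t ^ G.lam r) := by
    intro r hr t
    rw [ex_of_mem σ (g.X_mem_G _ _)]
    exact hσ _ r t hr rfl
  have hS := GD.chkS_sound hL
  have hp : ∀ r < T.n, T.n / 2 ≤ r → T.n / 2 ≤ G.rho r := by
    intro r hr h
    have := (allB_iff _ _).1 hpos r hr
    rw [Bool.or_eq_true] at this
    rcases this with h1 | h1
    · rw [← Nat.ble_eq] at h
      rw [h] at h1; exact absurd h1 (by simp)
    · simpa using h1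
  refine ⟨?_, ?_, ?_, ?_⟩
  · intro i t
    obtain ⟨h1, h2, h3⟩ := hS i i.2
    rw [hX _ (g.sim_lt i.2), h1, h2, hρ, hlam, Int.cast_one, one_mul]
  · intro i t
    obtain ⟨h1, h2, h3⟩ := hS i i.2
    have hsl := g.sim_lt i.2
    rw [hX _ (by omega), k.rneg hsl, k.eneg hsl, k.lneg hsl, h1, h2, hρ, hlam, Int.cast_one, one_mul]
  · apply Mp_of_le g.U_le_G
    intro x hx
    have hxG := g.U_le_G hx
    rw [g.U_eq] at hx
    induction hx using Subgroup.closure_induction with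
    | mem x hx =>
      obtain ⟨r, t, hp', hr, rfl⟩ := hx
      rw [hX r hr]
      exact g.X_mem_U (hp r hr hp') (k.lt hr) _
    | one => rw [CfsgLib.SA.ex_one]; exact Subgroup.one_mem _
    | mul x y hx' hy' hx hy =>
      have h1 : x ∈ D.group F := g.U_le_G (by rw [g.U_eq]; exact hx')
      have h2 : y ∈ D.group F := g.U_le_G (by rw [g.U_eq]; exact hy')
      rw [ex_mul σ h1 h2]; exact Subgroup.mul_mem _ (hx h1) (hy h2)
    | inv x hx' hx =>
      have h1 : x ∈ D.group F := g.U_le_G (by rw [g.U_eq]; exact hx')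
      rw [ex_inv σ h1]; exact Subgroup.inv_mem _ (hx h1)
  · apply Mp_of_le g.V_le_G
    intro x hx
    have hxG := g.V_le_G hx
    unfold ChevalleyDatum.negUnipotent at hx
    induction hx using Subgroup.closure_induction with
    | mem x hx =>
      obtain ⟨r, t, hr, hz⟩ := hx
      rw [g.isNeg_iff] at hr
      rw [g.X_iff] at hz
      rw [hz, hX r (by omega)]
      apply g.X_mem_V
      have h1 := hp (T.n - 1 - r) (by omega) (by omega)
      rw [k.rneg (by omega)] at h1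
      have h2 := k.lt (r := r) (by omega)
      omega
    | one => rw [CfsgLib.SA.ex_one]; exact Subgroup.one_mem _
    | mul x y hx' hy' hx hy =>
      have h1 : x ∈ D.group F := g.V_le_G hx'
      have h2 : y ∈ D.group F := g.V_le_G hy'
      rw [ex_mul σ h1 h2]; exact Subgroup.mul_mem _ (hx h1) (hy h2)
    | inv x hx' hx =>
      have h1 : x ∈ D.group F := g.V_le_G hx'
      rw [ex_inv σ h1]; exact Subgroup.inv_mem _ (hx h1)

theorem isGr_one [Finite F] (hT : T.TrOK) (hsl : T.chkSL = true) {G G' : GD} (k : G.OK T 0) (k' : G'.OK T 0) (hi : G.chkInv G' T = true)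
    (hl : G.chkL1 T = true) (hl' : G'.chkL1 T = true) {L : List ℕ} (hL : G.chkS T L = true) (hpos : G.chkPos T = true)
    {ρ : Equiv.Perm (Fin T.l)} (hρ : ∀ i : Fin T.l, (ρ i : ℕ) = L.getD i 0) : ∃ σ : D.group F ≃* D.group F, g.IsGr σ ρ := by
  obtain ⟨σ, hσ⟩ := g.graph_equiv_one (F := F) hT k k' hi hl hl' (RingEquiv.refl F)
  have l1 : ∀ r < T.n, G.lam r = 1 := fun r hr => by simpa using (allB_iff _ _).1 hl r hr
  refine ⟨σ, g.isGr_of_GD k hL hpos ?_ hρ ?_⟩
  · intro x r t hr hx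
    rw [hσ x r t hr hx, l1 r hr, pow_one]
    rfl
  · intro i
    rw [l1 _ (g.sim_lt i.2)]
    unfold saE
    rw [(sa_SL hsl).1 _ (ρ i).2]
    simp

theorem isGr_p [Finite F] (hT : T.TrOK) {G : GD} {p : ℕ} [hpp : Fact p.Prime] [hc : CharP F p] (k : G.OK T p) (hi : G.chkInv G T = true)
    (hl : G.chkLp T p = true) (he : ∀ r < T.n, G.eps r = 1) {L : List ℕ} (hL : G.chkS T L = true) (hpos : G.chkPos T = true)
    {ρ : Equiv.Perm (Fin T.l)} (hρ : ∀ i : Fin T.l, (ρ i : ℕ) = L.getD i 0)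
    (hlam : ∀ i : Fin T.l, G.lam (T.sim i) = if T.lng (T.sim (ρ i)) && !T.lng (T.sim i) then p else 1) :
    ∃ σ : D.group F ≃* D.group F, g.IsGr σ ρ := by
  have hperf : ∀ x : F, ∃ y : F, y ^ p = x := by
    intro x
    have : Function.Surjective (frobenius F p) := Finite.injective_iff_surjective.1 (frobenius_inj F p)
    exact this x
  obtain ⟨σ, hσ⟩ := g.graph_equiv_p (F := F) hT hperf k hi hl he (RingEquiv.refl F)
  refine ⟨σ, g.isGr_of_GD k hL hpos ?_ hρ ?_⟩
  · intro x r t hr hx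
    rw [hσ x r t hr hx, he r hr, Int.cast_one, one_mul]
    rfl
  · intro i
    rw [hlam i]
    unfold saE
    rw [ringChar.eq_iff.2 hc]

end Mat

end Good3

theorem revF4 (i : Fin 4) : ((Fin.revPerm i : Fin 4) : ℕ) = [3, 2, 1, 0].getD i 0 := by
  revert i; decide
theorem swap2 (i : Fin 2) : ((Equiv.swap (0 : Fin 2) 1 i : Fin 2) : ℕ) = [1, 0].getD i 0 := by
  revert i; decide

theorem lam_F4 : ∀ i : Fin 4, gdF4.lam (tF4.sim i) = if lF4 (Fin.revPerm i) && !lF4 i then 2 else 1 := by decide +kernel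
theorem lam_G2 : ∀ i : Fin 2, gdG2.lam (tG2.sim i) = if lG2 (Equiv.swap (0 : Fin 2) 1 i) && !lG2 i then 3 else 1 := by decide +kernel

def sE6 : Equiv.Perm (Fin 6) := Equiv.swap 0 5 * Equiv.swap 2 4
theorem sE6_L (i : Fin 6) : ((sE6 i : Fin 6) : ℕ) = [5, 1, 4, 3, 2, 0].getD i 0 := by
  revert i; decide +kernel

theorem isGr_F4 {F : Type*} [Field F] [Finite F] [CharP F 2] : ∃ σ : chevF4.group F ≃* chevF4.group F, good3_F4.IsGr σ (Fin.revPerm : Equiv.Perm (Fin 4)) := by
  have : Fact (Nat.Prime 2) := ⟨Nat.prime_two⟩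
  exact good3_F4.isGr_p tr_F4 gdF4_ok chkInv_F4 chkLp_F4 eps_F4 chkS_F4 pos_F4 (ρ := (Fin.revPerm : Equiv.Perm (Fin 4))) revF4 (fun i => by
    have h1 := lg_F4 i
    have h2 := lg_F4 (Fin.revPerm i)
    have h3 := lam_F4 i
    rw [← h1, ← h2] at h3
    exact h3)

theorem isGr_G2 {F : Type*} [Field F] [Finite F] [CharP F 3] : ∃ σ : chevG2.group F ≃* chevG2.group F, good3_G2.IsGr σ (Equiv.swap 0 1 : Equiv.Perm (Fin 2)) := by
  have : Fact (Nat.Prime 3) := ⟨Nat.prime_three⟩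
  exact good3_G2.isGr_p tr_G2 gdG2_ok chkInv_G2 chkLp_G2 eps_G2 chkS_G2 pos_G2 (ρ := (Equiv.swap 0 1 : Equiv.Perm (Fin 2))) swap2 (fun i => by
    have h1 := lg_G2 i
    have h2 := lg_G2 (Equiv.swap (0 : Fin 2) 1 i)
    have h3 := lam_G2 i
    rw [← h1, ← h2] at h3
    exact h3)

theorem isGr_E6 {F : Type*} [Field F] [Finite F] : ∃ σ : chevE6.group F ≃* chevE6.group F, good3_E6.IsGr σ sE6 :=
  good3_E6.isGr_one tr_E6 sl_E6 gdE6_ok gdE6_ok chkInv_E6 chkL1_E6 chkL1_E6 chkS_E6 pos_E6 (ρ := sE6) sE6_L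

end CfsgLib.Chev
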