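import Cfsg.Agent.LibSB5

set_option autoImplicit false
set_option maxRecDepth 1000000

/-! Automorphisms of Chevalley groups: orders for E6, F4, G2 -/

namespace CfsgLib.Chev

open Cfsg.Lie CfsgLib.SA

theorem sE6_ne : sE6 ≠ 1 := by decide +kernel

theorem out_E6 {F : Type*} [Field F] [Fintype F] (p f : ℕ) [Fact p.Prime] (hF : Fintype.card F = p ^ f) :
    Nat.card (Cfsg.Out ↥(Cfsg.Lie.chevE6.group F)) = 2 * Nat.gcd 3 (p ^ f - 1) * f := by
  obtain ⟨σ, hσ⟩ := isGr_E6 (F := F)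
  rw [good3_E6.out_card (good4_E6.sac_SL sl_E6) (by decide), good3_E6.card_R_two (s := sE6) sE6_ne hσ, (gal_card p f (by rw [Nat.card_eq_fintype_card, hF])).2]
  · have h1 := good3_E6.card_quot (F := F)
    have h2 := good3_E6.card_H_list (F := F) smith_E6 rfl
    have h3 : ((([-1, -1, -1, -1, -1, -3] : List ℤ).map fun z => Nat.gcd z.natAbs (Fintype.card F - 1)).prod) = Nat.gcd 3 (Fintype.card F - 1) := by simp
    rw [h3] at h2
    have h4 : (Fintype.card F - 1) ^ chevE6.rank = (Fintype.card F - 1) ^ tE6.l := congrArg _ good3_E6.hl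
    rw [h4, ← h1] at h2
    have h5 : 0 < Nat.card (chevE6.diagonalSubgroup F) := Nat.card_pos
    have h6 : Nat.card ((Fin tE6.l → Fˣ) ⧸ Good3.KH chevE6 tE6 F) = Nat.gcd 3 (Fintype.card F - 1) :=
      Nat.eq_of_mul_eq_mul_right h5 h2.symm
    rw [h6, hF]
    ring
  · intro ρ γ hγ
    rcases perm_E6 ρ (fun i j hij hA => hγ.adj hij hA) with h | h
    · left
      apply Equiv.ext
      show ∀ i : Fin 6, _
      intro i
      fin_cases i
      · exact h.1
      · exact h.2.1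
      · exact h.2.2.1
      · exact h.2.2.2.1
      · exact h.2.2.2.2.1
      · exact h.2.2.2.2.2
    · right
      apply Equiv.ext
      show ∀ i : Fin 6, _
      intro i
      fin_cases i
      · exact h.1
      · exact h.2.1
      · exact h.2.2.1
      · exact h.2.2.2.1
      · exact h.2.2.2.2.1
      · exact h.2.2.2.2.2

/-- a graph automorphism of F4 swapping the ends exists only in characteristic two -/
theorem no_F4 {F : Type*} [Field F] [Finite F] {γ : chevF4.group F ≃* chevF4.group F} {ρ : Equiv.Perm (Fin 4)} (h : good3_F4.IsGr γ ρ)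
    (h1 : ρ 1 = 2) (h2 : ρ 2 = 1) : (2 : F) = 0 := by
  obtain ⟨σ, _, hrel⟩ := h.field
  have hcm : ∀ i j : Fin 4, tF4.A i (tF4.sim j) = cF4 i j := cm_F4
  have hrel' : ∀ (σ : Fin 4 → (F ≃+* F)), (∀ (i j : Fin 4) (c : F), c ≠ 0 → (σ j c) ^ (cF4 i j) = (σ i c) ^ cF4 (ρ i) (ρ j)) →
      ∀ c, σ 1 c = σ 2 c ^ 2 := by
    intro σ hr
    apply pow_of_zpow (by norm_num)
    intro c hc
    have := hr 1 2 c hc
    rw [h1, h2] at this
    exact this
  have e : ∀ c, σ (1 : Fin 4) c = σ (2 : Fin 4) c ^ 2 := hrel' σ (fun i j c hc => by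
    rw [← hcm i j, ← hcm (ρ i) (ρ j)]
    exact hrel i j c hc)
  have h3 := e 2
  rw [map_ofNat, map_ofNat] at h3
  linear_combination -h3

theorem no_G2 {F : Type*} [Field F] [Finite F] {γ : chevG2.group F ≃* chevG2.group F} {ρ : Equiv.Perm (Fin 2)} (h : good3_G2.IsGr γ ρ)
    (h0 : ρ 0 = 1) (h1 : ρ 1 = 0) (hF : ∃ a : F, a ≠ 0 ∧ a ≠ 1) : (3 : F) = 0 := by
  obtain ⟨σ, _, hrel⟩ := h.field
  have hcm : ∀ i j : Fin 2, tG2.A i (tG2.sim j) = cG2 i j := cm_G2
  have hrel' : ∀ (σ : Fin 2 → (F ≃+* F)), (∀ (i j : Fin 2) (c : F), c ≠ 0 → (σ j c) ^ (cG2 i j) = (σ i c) ^ cG2 (ρ i) (ρ j)) →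
      ∀ c, σ 0 c = σ 1 c ^ 3 := by
    intro σ hr
    apply pow_of_zpow (by norm_num)
    intro c hc
    have := hr 0 1 c hc
    rw [h0, h1] at this
    exact this
  have e : ∀ c, σ (0 : Fin 2) c = σ (1 : Fin 2) c ^ 3 := hrel' σ (fun i j c hc => by
    rw [← hcm i j, ← hcm (ρ i) (ρ j)]
    exact hrel i j c hc)
  have h3 := e 2
  rw [map_ofNat, map_ofNat] at h3
  have h6 : (2 : F) * 3 = 0 := by linear_combination -h3
  rcases mul_eq_zero.1 h6 with h7 | h7
  · exfalso
    obtain ⟨a, ha0, ha1⟩ := hF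
    obtain ⟨c, hc⟩ := (σ (1 : Fin 2)).surjective a
    have h8 := e (c + 1)
    rw [map_add, map_add, map_one, map_one, e c, hc] at h8
    have h9 : a * (a + 1) = 0 := by linear_combination -h8 - (a ^ 2 + a) * h7
    rcases mul_eq_zero.1 h9 with h | h
    · exact ha0 h
    · apply ha1
      linear_combination h - h7
  · exact h7

theorem out_F4 {F : Type*} [Field F] [Fintype F] (p f : ℕ) [hp : Fact p.Prime] [hc : CharP F p] (hF : Fintype.card F = p ^ f) :
    Nat.card (Cfsg.Out ↥(Cfsg.Lie.chevF4.group F)) = Nat.gcd 2 p * f := by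
  rw [good3_F4.out_card sac_F4 (by decide), (gal_card p f (by rw [Nat.card_eq_fintype_card, hF])).2]
  have h1 := good3_F4.card_quot (F := F)
  have h2 := good3_F4.card_H_list (F := F) smith_F4 rfl
  have h3 : ((([-1, -1, -1, -1] : List ℤ).map fun z => Nat.gcd z.natAbs (Fintype.card F - 1)).prod) = 1 := by simp
  rw [h3, one_mul] at h2
  have h4 : (Fintype.card F - 1) ^ chevF4.rank = (Fintype.card F - 1) ^ tF4.l := congrArg _ good3_F4.hl
  rw [h4, ← h1] at h2
  have h5 : 0 < Nat.card (chevF4.diagonalSubgroup F) := Nat.card_pos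
  have h6 : Nat.card ((Fin tF4.l → Fˣ) ⧸ Good3.KH chevF4 tF4 F) = 1 :=
    Nat.eq_of_mul_eq_mul_right h5 (by rw [one_mul]; exact h2.symm)
  rw [h6, one_mul]
  have hperm : ∀ (ρ : Equiv.Perm (Fin 4)) (γ : chevF4.group F ≃* chevF4.group F), good3_F4.IsGr γ ρ → 
      (ρ 0 = 0 ∧ ρ 1 = 1 ∧ ρ 2 = 2 ∧ ρ 3 = 3) ∨ (ρ 0 = 3 ∧ ρ 1 = 2 ∧ ρ 2 = 1 ∧ ρ 3 = 0) := by
    intro ρ γ hγ
    apply perm4
    intro i j hij h
    have h7 := hγ.adj (i := i) (j := j) hij
    have h8 : tF4.A (i : Fin 4) (tF4.sim (j : Fin 4)) = cF4 i j := cm_F4 i j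
    have h9 : tF4.A (ρ i : Fin 4) (tF4.sim (ρ j : Fin 4)) = cF4 (ρ i) (ρ j) := cm_F4 _ _
    rw [← h9]
    exact h7 (by rw [h8]; exact h)
  by_cases hp2 : p = 2
  · subst hp2
    obtain ⟨σ, hσ⟩ := isGr_F4 (F := F)
    rw [good3_F4.card_R_two (s := (Fin.revPerm : Equiv.Perm (Fin 4))) (by show (Fin.revPerm : Equiv.Perm (Fin 4)) ≠ 1; decide) hσ]
    · simp
    · intro ρ γ hγ
      rcases hperm ρ γ hγ with h | h
      · left
        apply Equiv.ext
        exact fin4_forall h.1 h.2.1 h.2.2.1 h.2.2.2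
      · right
        apply Equiv.ext
        exact fin4_forall h.1 h.2.1 h.2.2.1 h.2.2.2
  · have hg : Nat.gcd 2 p = 1 := by
      have := (Nat.coprime_primes Nat.prime_two hp.out).2 (Ne.symm hp2)
      exact this
    rw [hg, good3_F4.card_R_one]
    intro ρ γ hγ
    rcases hperm ρ γ hγ with h | h
    · apply Equiv.ext
      exact fin4_forall h.1 h.2.1 h.2.2.1 h.2.2.2
    · exfalso
      have h7 := no_F4 hγ h.2.1 h.2.2.1
      have h8 : ((2 : ℕ) : F) = 0 := by exact_mod_cast h7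
      rw [CharP.cast_eq_zero_iff F p] at h8
      exact hp2 ((Nat.prime_dvd_prime_iff_eq hp.out Nat.prime_two).1 h8)

theorem out_G2 {F : Type*} [Field F] [Fintype F] (p f : ℕ) [hp : Fact p.Prime] [hc : CharP F p] (hF : Fintype.card F = p ^ f) (hq : 3 ≤ p ^ f) :
    Nat.card (Cfsg.Out ↥(Cfsg.Lie.chevG2.group F)) = (if p = 3 then 2 * f else f) := by
  rw [good3_G2.out_card sac_G2 (by decide), (gal_card p f (by rw [Nat.card_eq_fintype_card, hF])).2]
  have h1 := good3_G2.card_quot (F := F)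
  have h2 := good3_G2.card_H_list (F := F) smith_G2 rfl
  have h3 : ((([-1, 1] : List ℤ).map fun z => Nat.gcd z.natAbs (Fintype.card F - 1)).prod) = 1 := by simp
  rw [h3, one_mul] at h2
  have h4 : (Fintype.card F - 1) ^ chevG2.rank = (Fintype.card F - 1) ^ tG2.l := congrArg _ good3_G2.hl
  rw [h4, ← h1] at h2
  have h5 : 0 < Nat.card (chevG2.diagonalSubgroup F) := Nat.card_pos
  have h6 : Nat.card ((Fin tG2.l → Fˣ) ⧸ Good3.KH chevG2 tG2 F) = 1 :=
    Nat.eq_of_mul_eq_mul_right h5 (by rw [one_mul]; exact h2.symm)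
  rw [h6, one_mul]
  have hFa : ∃ a : F, a ≠ 0 ∧ a ≠ 1 := by
    classical
    by_contra hcon
    push Not at hcon
    have : Fintype.card F ≤ 2 := by
      have hsub : (Finset.univ : Finset F) ⊆ {0, 1} := by
        intro a _
        by_cases ha : a = 0
        · simp [ha]
        · simp [hcon a ha]
      calc Fintype.card F = (Finset.univ : Finset F).card := rfl
        _ ≤ ({0, 1} : Finset F).card := Finset.card_le_card hsub
        _ ≤ 2 := Finset.card_le_two
    omega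
  by_cases hp3 : p = 3
  · subst hp3
    obtain ⟨σ, hσ⟩ := isGr_G2 (F := F)
    rw [good3_G2.card_R_two (s := (Equiv.swap 0 1 : Equiv.Perm (Fin 2))) (by show (Equiv.swap 0 1 : Equiv.Perm (Fin 2)) ≠ 1; decide) hσ]
    · simp
    · intro ρ γ hγ
      rcases perm2 ρ with h | h
      · left
        apply Equiv.ext
        show ∀ i : Fin 2, _
        rw [Fin.forall_fin_two]; exact h
      · right
        apply Equiv.ext
        show ∀ i : Fin 2, _
        rw [Fin.forall_fin_two]; exact h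
  · rw [if_neg hp3, good3_G2.card_R_one, one_mul]
    intro ρ γ hγ
    rcases perm2 ρ with h | h
    · apply Equiv.ext
      show ∀ i : Fin 2, _
      rw [Fin.forall_fin_two]; exact h
    · exfalso
      have h7 := no_G2 hγ h.1 h.2 hFa
      have h8 : ((3 : ℕ) : F) = 0 := by exact_mod_cast h7
      rw [CharP.cast_eq_zero_iff F p] at h8
      exact hp3 ((Nat.prime_dvd_prime_iff_eq hp.out Nat.prime_three).1 h8)

end CfsgLib.Chev
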