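import Cfsg.Agent.LibSB5

set_option autoImplicit false
set_option maxRecDepth 1000000

/-! Automorphisms of Chevalley groups: the permutation of the nodes induced by an outer automorphism -/

namespace CfsgLib.Chev

open Cfsg.Lie CfsgLib.SA

namespace Good3

variable {D : ChevalleyDatum} {T : Tb} (g : Good3 D T)
include g

section Mat
variable {F : Type*} [Field F]

/-- `θ` induces the permutation `ρ` of the nodes -/
def Rp (θ : D.group F ≃* D.group F) (ρ : Equiv.Perm (Fin T.l)) : Prop :=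
  ∃ c : D.group F, Mp (θ.trans (inn c)) (D.posUnipotent F) (D.posUnipotent F) ∧
    Mp (θ.trans (inn c)) (D.negUnipotent F) (D.negUnipotent F) ∧
    ∀ i : Fin T.l, ∀ t : F, ∃ t' : F, ex (θ.trans (inn c)) (g.X (T.sim i) t) = g.X (T.sim (ρ i)) t'

theorem Rp_exists [Finite F] (θ : D.group F ≃* D.group F) : ∃ ρ, g.Rp θ ρ := by
  obtain ⟨c, hU, hV⟩ := g.sa_red θ
  obtain ⟨ρ, hρ⟩ := g.sa_simple hU hV
  exact ⟨ρ, c, hU, hV, fun i => (hρ i).1⟩

variable {g} in
theorem Rp.unique {θ : D.group F ≃* D.group F} {ρ ρ' : Equiv.Perm (Fin T.l)} (h : g.Rp θ ρ) (h' : g.Rp θ ρ') : ρ = ρ' := by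
  obtain ⟨c, hU, hV, hx⟩ := h
  obtain ⟨c', hU', hV', hx'⟩ := h'
  have hev := g.even
  have he : θ.trans (inn c') = (θ.trans (inn c)).trans (inn (c' * c⁻¹)) := by
    rw [trans_inn_inn]
    congr 2
    group
  have key : ∀ K : Subgroup (GL D.Idx F), Mp (θ.trans (inn c)) K K → Mp (θ.trans (inn c')) K K →
      ∀ y, y ∈ K ↔ ((c' * c⁻¹ : D.group F) : GL D.Idx F) * y * ((c' * c⁻¹ : D.group F) : GL D.Idx F)⁻¹ ∈ K := by
    intro K h1 h2 y
    have h3 : Mp (inn (c' * c⁻¹)) K K := by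
      have h4 := h1.symm.trans h2
      have h5 : (θ.trans (inn c)).symm.trans (θ.trans (inn c')) = inn (c' * c⁻¹) := by
        rw [he]
        apply MulEquiv.ext
        intro y
        show inn (c' * c⁻¹) ((θ.trans (inn c)) ((θ.trans (inn c)).symm y)) = _
        rw [MulEquiv.apply_symm_apply]
      rwa [h5] at h4
    constructor
    · intro hy
      have := h3.mem hy
      rwa [ex_inn _ (h3.1 hy)] at this
    · intro hy
      have hyG : y ∈ D.group F := by
        have := Subgroup.mul_mem _ (Subgroup.mul_mem _ (Subgroup.inv_mem _ (c' * c⁻¹ : D.group F).2) (h3.1 hy)) (c' * c⁻¹ : D.group F).2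
        have e : ((c' * c⁻¹ : D.group F) : GL D.Idx F)⁻¹ * (((c' * c⁻¹ : D.group F) : GL D.Idx F) * y * ((c' * c⁻¹ : D.group F) : GL D.Idx F)⁻¹) *
          ((c' * c⁻¹ : D.group F) : GL D.Idx F) = y := by group
        rwa [e] at this
      rw [h3.2.2 y hyG, ex_inn _ hyG]
      exact hy
  have hH := g.sa_norm_UV (c' * c⁻¹ : D.group F).2 (key _ hU hU') (key _ hV hV')
  obtain ⟨χ, _, _, hX⟩ := g.H_X hH
  apply Equiv.ext
  intro i
  apply Fin.ext
  obtain ⟨t, ht⟩ := hx i 1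
  obtain ⟨t', ht'⟩ := hx' i 1
  rw [he, ex_trans _ _ (g.X_mem_G _ _), ht, ex_inn _ (g.X_mem_G _ _), hX _ (g.sim_lt (ρ i).2)] at ht'
  have ht0 : t ≠ 0 := by
    rintro rfl
    rw [g.X_zero] at ht
    rw [ex_eq_one _ (g.X_mem_G _ _), g.X_eq_one (g.sim_lt i.2)] at ht
    exact one_ne_zero ht
  exact g.sa_sim_disj (ρ i).2 (ρ' i).2 (mul_ne_zero (Units.ne_zero _) ht0) ht'

variable {g} in
theorem Rp.mul {θ θ' : D.group F ≃* D.group F} {ρ ρ' : Equiv.Perm (Fin T.l)} (h : g.Rp θ ρ) (h' : g.Rp θ' ρ') :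
    g.Rp (θ'.trans θ) (ρ * ρ') := by
  obtain ⟨c, hU, hV, hx⟩ := h
  obtain ⟨c', hU', hV', hx'⟩ := h'
  have he : (θ'.trans θ).trans (inn (c * θ c')) = (θ'.trans (inn c')).trans (θ.trans (inn c)) := by
    apply MulEquiv.ext
    intro y
    show c * θ c' * θ (θ' y) * (c * θ c')⁻¹ = c * θ (c' * θ' y * c'⁻¹) * c⁻¹
    rw [map_mul, map_mul, map_inv]
    group
  refine ⟨c * θ c', ?_, ?_, ?_⟩
  · rw [he]; exact hU'.trans hU
  · rw [he]; exact hV'.trans hV
  · intro i t
    obtain ⟨t', ht'⟩ := hx' i t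
    obtain ⟨t'', ht''⟩ := hx (ρ' i) t'
    refine ⟨t'', ?_⟩
    rw [he, ex_trans _ _ (g.X_mem_G _ _), ht', ht'']
    rfl

theorem Rp_inn (c : D.group F) : g.Rp (inn c) 1 := by
  have he : (inn c).trans (inn c⁻¹) = MulEquiv.refl (D.group F) := by
    apply MulEquiv.ext
    intro y
    show c⁻¹ * (c * y * c⁻¹) * (c⁻¹)⁻¹ = y
    group
  have h1 := IsGr.one_iff (g := g) (F := F)
  refine ⟨c⁻¹, ?_, ?_, ?_⟩
  · rw [he]; exact h1.hU
  · rw [he]; exact h1.hV
  · intro i t
    rw [he]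
    exact ⟨_, h1.hx i t⟩

variable {g} in
theorem IsGr.Rp {γ : D.group F ≃* D.group F} {ρ : Equiv.Perm (Fin T.l)} (h : g.IsGr γ ρ) : g.Rp γ ρ := by
  have he : γ.trans (inn 1) = γ := by
    apply MulEquiv.ext
    intro y
    show 1 * γ y * 1⁻¹ = γ y
    group
  refine ⟨1, ?_, ?_, ?_⟩
  · rw [he]; exact h.hU
  · rw [he]; exact h.hV
  · intro i t
    rw [he]
    exact ⟨_, h.hx i t⟩

theorem Rp_saD (b : ℕ → Fˣ) : g.Rp (g.saD b) 1 := by
  have he : (g.saD b).trans (inn 1) = g.saD b := by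
    apply MulEquiv.ext
    intro y
    show 1 * (g.saD b y) * 1⁻¹ = g.saD b y
    group
  refine ⟨1, ?_, ?_, ?_⟩
  · rw [he]; exact g.sa_Mp_U b
  · rw [he]; exact g.sa_Mp_V b
  · intro i t
    rw [he]
    exact ⟨_, g.ex_saD_X b (g.sim_lt i.2) t⟩

theorem Rp_saF (τ : F ≃+* F) : g.Rp (g.saF τ) 1 := by
  have he : (g.saF τ).trans (inn 1) = g.saF τ := by
    apply MulEquiv.ext
    intro y
    show 1 * (g.saF τ y) * 1⁻¹ = g.saF τ y
    group
  refine ⟨1, ?_, ?_, ?_⟩
  · rw [he]; exact g.sa_Mp_FU τ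
  · rw [he]; exact g.sa_Mp_FV τ
  · intro i t
    rw [he]
    exact ⟨_, g.ex_saF_X τ _ t⟩

/-- the permutation of the nodes induced by an automorphism -/
noncomputable def pmA [Finite F] : MulAut (D.group F) →* Equiv.Perm (Fin T.l) where
  toFun θ := Classical.choose (g.Rp_exists θ)
  map_one' := by
    have h1 := Classical.choose_spec (g.Rp_exists (1 : MulAut (D.group F)))
    exact h1.unique (IsGr.one_iff (g := g) (F := F)).Rp
  map_mul' θ θ' := by
    have h1 := Classical.choose_spec (g.Rp_exists θ)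
    have h2 := Classical.choose_spec (g.Rp_exists θ')
    have h3 := Classical.choose_spec (g.Rp_exists (θ * θ'))
    exact h3.unique (h1.mul h2)

theorem pmA_spec [Finite F] (θ : MulAut (D.group F)) : g.Rp θ (g.pmA θ) := Classical.choose_spec (g.Rp_exists θ)

theorem pmA_eq [Finite F] {θ : MulAut (D.group F)} {ρ : Equiv.Perm (Fin T.l)} (h : g.Rp θ ρ) : g.pmA θ = ρ :=
  (g.pmA_spec θ).unique h

/-- the permutation of the nodes induced by an outer automorphism -/
noncomputable def pmO [Finite F] : Cfsg.Out ↥(D.group F) →* Equiv.Perm (Fin T.l) :=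
  QuotientGroup.lift (Cfsg.Inn ↥(D.group F)) g.pmA (by
    rintro _ ⟨c, rfl⟩
    rw [MonoidHom.mem_ker]
    exact g.pmA_eq (g.Rp_inn c))

theorem pmO_mk [Finite F] (θ : MulAut (D.group F)) : g.pmO (QuotientGroup.mk θ) = g.pmA θ := rfl

/-- the homomorphism of diagonal automorphisms -/
noncomputable def dH : (Fin T.l → Fˣ) →* MulAut (D.group F) where
  toFun b := g.saD (ext1 b)
  map_one' := by
    apply MulEquiv.ext
    intro x
    apply Subtype.ext
    have h1 := g.ex_saD (ext1 (1 : Fin T.l → Fˣ)) x.2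
    rw [ex_coe] at h1
    have h2 : tor D T (ext1 (1 : Fin T.l → Fˣ)) = (1 : GL D.Idx F) := (torHom D T F).map_one
    rw [h1, h2]
    simp
  map_mul' a b := by
    apply MulEquiv.ext
    intro x
    apply Subtype.ext
    have h1 := g.ex_saD (ext1 (a * b)) x.2
    rw [ex_coe] at h1
    have h2 : tor D T (ext1 (a * b)) = tor D T (ext1 a) * tor D T (ext1 b) := (torHom D T F).map_mul a b
    have h3 := g.ex_saD (ext1 b) x.2
    rw [ex_coe] at h3
    have h4 := g.ex_saD (ext1 a) (g.saD (ext1 b) x).2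
    rw [ex_coe] at h4
    show _ = ((g.saD (ext1 a) (g.saD (ext1 b) x) : D.group F) : GL D.Idx F)
    rw [h1, h4, h3, h2]
    group

theorem dH_eq (b : ℕ → Fˣ) : g.dH (fun j : Fin T.l => b j) = g.saD b := by
  apply g.saD_congr
  intro j hj
  unfold ext1
  rw [dif_pos hj]

/-- the homomorphism of field automorphisms -/
noncomputable def fH : (F ≃+* F) →* MulAut (D.group F) where
  toFun σ := g.saF σ
  map_one' := by
    apply g.sa_ext
    · intro i hi t
      rw [g.ex_saF_X, ex_of_mem _ (g.X_mem_G _ _)]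
      rfl
    · intro i hi t
      rw [g.ex_saF_X, ex_of_mem _ (g.X_mem_G _ _)]
      rfl
  map_mul' σ τ := by
    have e : (g.saF σ * g.saF τ : MulAut (D.group F)) = (g.saF τ).trans (g.saF σ) := rfl
    rw [e]
    apply g.sa_ext
    · intro i hi t
      rw [ex_trans _ _ (g.X_mem_G _ _), g.ex_saF_X, g.ex_saF_X, g.ex_saF_X]
      rfl
    · intro i hi t
      rw [ex_trans _ _ (g.X_mem_G _ _), g.ex_saF_X, g.ex_saF_X, g.ex_saF_X]
      rfl

theorem diag_closure (hd : T.chkDesc = true) : Subgroup.closure {φ : MulAut ↥(D.group F) | D.IsDiagonalAut φ} = (g.dH (F := F)).range := by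
  apply le_antisymm
  · rw [Subgroup.closure_le]
    rintro φ ⟨χ, hχ, h⟩
    refine ⟨fun j => χ (T.sim j), ?_⟩
    obtain ⟨h1, h2⟩ := g.sa_charDiag hd hχ
    apply MulEquiv.ext
    intro x
    apply Subtype.ext
    have h3 := g.ex_saD (fun j => χ (T.sim j)) x.2
    rw [ex_coe] at h3
    rw [g.dH_eq (fun j => χ (T.sim j)), h3]
    apply Units.ext
    rw [h x, h1, h2]
    rfl
  · rintro _ ⟨b, rfl⟩
    exact Subgroup.subset_closure (g.saD_isDiag _)

theorem field_closure : Subgroup.closure {φ : MulAut ↥(D.group F) | D.IsFieldAut φ} = (g.fH (F := F)).range := by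
  have hev := g.even
  apply le_antisymm
  · rw [Subgroup.closure_le]
    rintro φ ⟨σ, h⟩
    refine ⟨σ, ?_⟩
    have hX : ∀ r < T.n, ∀ t, ex φ (g.X r t) = g.X r (σ t) := by
      intro r hr t
      have := h ⟨g.X r t, g.X_mem_G _ _⟩ r t (by rw [g.hn]; exact hr) rfl
      rw [ex_of_mem φ (g.X_mem_G _ _)]
      exact g.eq_X this
    show g.saF σ = φ
    apply g.sa_ext
    · intro i hi t
      rw [g.ex_saF_X, hX _ (g.sim_lt hi)]
    · intro i hi t
      have := g.sim_lt hi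
      rw [g.ex_saF_X, hX _ (by omega)]
  · rintro _ ⟨σ, rfl⟩
    exact Subgroup.subset_closure (g.saF_isField _)

/-- a field automorphism normalizes the diagonal ones -/
theorem conj_F (τ : F ≃+* F) (b : ℕ → Fˣ) : (g.saD b).trans (g.saF τ) = (g.saF τ).trans (g.saD (fun j => Units.map (τ : F →* F) (b j))) := by
  have hev := g.even
  have hc : ∀ r, ((chi T (fun j => Units.map (τ : F →* F) (b j)) r : Fˣ) : F) = τ (chi T b r : F) := by
    intro r
    have : chi T (fun j => Units.map (τ : F →* F) (b j)) r = Units.map (τ : F →* F) (chi T b r) := by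
      unfold chi
      rw [map_prod]
      apply Finset.prod_congr rfl
      intro j _
      rw [map_zpow]
    rw [this]
    rfl
  apply g.sa_ext
  · intro i hi t
    rw [ex_trans _ _ (g.X_mem_G _ _), ex_trans _ _ (g.X_mem_G _ _), g.ex_saD_X _ (g.sim_lt hi), g.ex_saF_X, g.ex_saF_X,
      g.ex_saD_X _ (g.sim_lt hi), hc, map_mul]
  · intro i hi t
    have := g.sim_lt hi
    rw [ex_trans _ _ (g.X_mem_G _ _), ex_trans _ _ (g.X_mem_G _ _), g.ex_saD_X _ (by omega), g.ex_saF_X, g.ex_saF_X,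
      g.ex_saD_X _ (by omega), hc, map_mul]

variable {g} in
/-- a graph automorphism normalizes the diagonal ones -/
theorem IsGr.conj {γ : D.group F ≃* D.group F} {ρ : Equiv.Perm (Fin T.l)} (h : g.IsGr γ ρ) (b : ℕ → Fˣ) :
    ∃ b' : ℕ → Fˣ, (g.saD b).trans γ = γ.trans (g.saD b') := by
  have hev := g.even
  refine ⟨ext1 (fun j : Fin T.l => b (ρ.symm j) ^ saE T F ρ (ρ.symm j)), ?_⟩
  have hb : ∀ i : Fin T.l, ext1 (fun j : Fin T.l => b (ρ.symm j) ^ saE T F ρ (ρ.symm j)) (ρ i) = b i ^ saE T F ρ i := by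
    intro i
    unfold ext1
    rw [dif_pos (ρ i).2]
    simp
  have hneg : ∀ (a : ℕ → Fˣ) (i : Fin T.l), chi T a (T.n - 1 - T.sim i) = (a i)⁻¹ := by
    intro a i
    rw [(g.chi_isChi a).1 _ (g.sim_lt i.2), g.chi_sim _ i.2]
  apply g.sa_ext
  · intro i hi t
    have h1 := h.hx ⟨i, hi⟩
    simp only at h1
    rw [ex_trans _ _ (g.X_mem_G _ _), ex_trans _ _ (g.X_mem_G _ _), g.ex_saD_X _ (g.sim_lt hi), h1, h1,
      g.ex_saD_X _ (g.sim_lt (ρ _).2), g.chi_sim _ hi, g.chi_sim _ (ρ _).2, hb, mul_pow]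
    first | rfl | skip
  · intro i hi t
    have h1 := h.hy ⟨i, hi⟩
    simp only at h1
    have h2 := g.sim_lt hi
    have h3 := g.sim_lt (ρ ⟨i, hi⟩).2
    rw [ex_trans _ _ (g.X_mem_G _ _), ex_trans _ _ (g.X_mem_G _ _), g.ex_saD_X _ (by omega), h1, h1,
      g.ex_saD_X _ (by omega), hneg, hneg b ⟨i, hi⟩, hb, mul_pow]
    congr 2
    all_goals (push_cast; rw [inv_pow])

end Mat

end Good3

end CfsgLib.Chev
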