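import Cfsg.Agent.LibSB7
import Cfsg.Agent.LibSB6

set_option autoImplicit false
set_option maxRecDepth 1000000

/-! Automorphisms of Chevalley groups: structure of the outer automorphism group -/

namespace CfsgLib.Chev

open Cfsg.Lie CfsgLib.SA

namespace Good3

variable {D : ChevalleyDatum} {T : Tb} (g : Good3 D T)
include g

section Mat
variable {F : Type*} [Field F]

/-- the quotient map -/
noncomputable def qO (D : ChevalleyDatum) (F : Type*) [Field F] : MulAut ↥(D.group F) →* Cfsg.Out ↥(D.group F) := QuotientGroup.mk' (Cfsg.Inn ↥(D.group F))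

theorem out_decomp [Finite F] (hcl : SAC T F) (o : Cfsg.Out ↥(D.group F)) :
    ∃ (b : ℕ → Fˣ) (ρ : Equiv.Perm (Fin T.l)) (τ : F ≃+* F) (γ : D.group F ≃* D.group F), g.IsGr γ ρ ∧
      o = qO D F (g.saD b : MulAut _) * qO D F (γ : MulAut _) * qO D F (g.saF τ : MulAut _) := by
  obtain ⟨θ, rfl⟩ := QuotientGroup.mk_surjective o
  obtain ⟨c, b, ρ, τ, γ, hγ, _, he⟩ := g.sa_main' hcl θ
  refine ⟨b, ρ, τ, γ, hγ, ?_⟩
  rw [← map_mul, ← map_mul]
  have h1 : (QuotientGroup.mk ((g.saD b : MulAut ↥(D.group F)) * (γ : MulAut _) * (g.saF τ : MulAut _)) : Cfsg.Out ↥(D.group F)) = QuotientGroup.mk θ := by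
    rw [out_eq_iff]
    exact ⟨c, he⟩
  exact h1.symm

theorem D_normal [Finite F] (hcl : SAC T F) : ((g.dH (F := F)).range.map (qO D F)).Normal := by
  constructor
  rintro _ ⟨_, ⟨b, rfl⟩, rfl⟩ o
  obtain ⟨a, ρ, τ, γ, hγ, rfl⟩ := g.out_decomp hcl o
  have h1 := g.conj_F τ (ext1 b)
  obtain ⟨b2, h2⟩ := hγ.conj (fun j => Units.map (τ : F →* F) (ext1 b j))
  have e1 : (g.saF τ : MulAut ↥(D.group F)) * (g.dH b : MulAut _) = (g.saD (fun j => Units.map (τ : F →* F) (ext1 b j)) : MulAut _) * (g.saF τ : MulAut _) := h1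
  have e2 : (γ : MulAut ↥(D.group F)) * (g.saD (fun j => Units.map (τ : F →* F) (ext1 b j)) : MulAut _) = (g.saD b2 : MulAut _) * (γ : MulAut _) := h2
  have e3 : (g.saD a : MulAut ↥(D.group F)) * (g.saD b2 : MulAut _) = (g.saD b2 : MulAut _) * (g.saD a : MulAut _) := by
    rw [← g.dH_eq a, ← g.dH_eq b2, ← map_mul, mul_comm, map_mul]
  refine ⟨(g.saD b2 : MulAut _), ⟨_, g.dH_eq b2⟩, ?_⟩
  have f1 := congrArg (qO D F) e1
  have f2 := congrArg (qO D F) e2
  have f3 := congrArg (qO D F) e3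
  rw [map_mul, map_mul] at f1 f2 f3
  rw [eq_mul_inv_iff_mul_eq]
  calc qO D F (g.saD b2) * (qO D F (g.saD a) * qO D F γ * qO D F (g.saF τ))
      = (qO D F (g.saD b2) * qO D F (g.saD a)) * qO D F γ * qO D F (g.saF τ) := by group
    _ = qO D F (g.saD a) * (qO D F (g.saD b2) * qO D F γ) * qO D F (g.saF τ) := by rw [← f3]; group
    _ = qO D F (g.saD a) * qO D F γ * (qO D F (g.saD fun j => Units.map (τ : F →* F) (ext1 b j)) * qO D F (g.saF τ)) := by rw [← f2]; group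
    _ = qO D F (g.saD a) * qO D F γ * qO D F (g.saF τ) * qO D F (g.dH b) := by rw [← f1]; group

theorem D_comm : IsMulCommutative ↥((g.dH (F := F)).range.map (qO D F)) := by
  refine ⟨⟨?_⟩⟩
  rintro ⟨_, _, ⟨a, rfl⟩, rfl⟩ ⟨_, _, ⟨b, rfl⟩, rfl⟩
  apply Subtype.ext
  show qO D F (g.dH a) * qO D F (g.dH b) = qO D F (g.dH b) * qO D F (g.dH a)
  rw [← map_mul, ← map_mul, ← map_mul, ← map_mul, mul_comm]

theorem F_cyclic [Finite F] : IsCyclic ↥((g.fH (F := F)).range.map (qO D F)) := by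
  obtain ⟨p, hpc⟩ := CharP.exists F
  have := hpc
  have hp : Fact p.Prime := ⟨CharP.char_is_prime F p⟩
  let _ := Fintype.ofFinite F
  obtain ⟨n, hn⟩ := FiniteField.card F p
  have hcyc : IsCyclic (F ≃+* F) := (gal_card p n (by rw [Nat.card_eq_fintype_card]; exact hn.2)).1
  rw [MonoidHom.map_range]
  exact isCyclic_of_surjective ((qO D F).comp (g.fH (F := F))).rangeRestrict (MonoidHom.rangeRestrict_surjective _)

theorem sup_eq_ker [Finite F] (hcl : SAC T F) :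
    (g.dH (F := F)).range.map (qO D F) ⊔ (g.fH (F := F)).range.map (qO D F) = g.pmO.ker := by
  apply le_antisymm
  · rw [sup_le_iff]
    constructor
    · rintro _ ⟨_, ⟨b, rfl⟩, rfl⟩
      rw [MonoidHom.mem_ker]
      exact g.pmA_eq (g.Rp_saD _)
    · rintro _ ⟨_, ⟨σ, rfl⟩, rfl⟩
      rw [MonoidHom.mem_ker]
      exact g.pmA_eq (g.Rp_saF _)
  · intro o ho
    obtain ⟨b, ρ, τ, γ, hγ, rfl⟩ := g.out_decomp hcl o
    rw [MonoidHom.mem_ker, map_mul, map_mul] at ho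
    have h1 : g.pmO (qO D F (g.saD b)) = 1 := g.pmA_eq (g.Rp_saD _)
    have h2 : g.pmO (qO D F (g.saF τ)) = 1 := g.pmA_eq (g.Rp_saF _)
    have h3 : g.pmO (qO D F γ) = ρ := g.pmA_eq hγ.Rp
    rw [h1, h2, h3, one_mul, mul_one] at ho
    subst ho
    have h4 : γ = MulEquiv.refl _ := hγ.unique IsGr.one_iff
    have h5 : qO D F (γ : MulAut _) = 1 := by
      rw [h4]
      exact (qO D F).map_one
    rw [h5, mul_one]
    apply Subgroup.mul_mem
    · exact Subgroup.mem_sup_left ⟨_, ⟨_, g.dH_eq b⟩, rfl⟩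
    · exact Subgroup.mem_sup_right ⟨_, ⟨τ, rfl⟩, rfl⟩

theorem mem_pm_range [Finite F] (hcl : SAC T F) {ρ : Equiv.Perm (Fin T.l)} : ρ ∈ (g.pmO (F := F)).range ↔
    ∃ γ : D.group F ≃* D.group F, g.IsGr γ ρ := by
  constructor
  · rintro ⟨o, rfl⟩
    obtain ⟨b, ρ, τ, γ, hγ, rfl⟩ := g.out_decomp hcl o
    rw [map_mul, map_mul]
    have h1 : g.pmO (qO D F (g.saD b)) = 1 := g.pmA_eq (g.Rp_saD _)
    have h2 : g.pmO (qO D F (g.saF τ)) = 1 := g.pmA_eq (g.Rp_saF _)
    have h3 : g.pmO (qO D F γ) = ρ := g.pmA_eq hγ.Rp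
    rw [h1, h2, h3, one_mul, mul_one]
    exact ⟨γ, hγ⟩
  · rintro ⟨γ, hγ⟩
    exact ⟨qO D F γ, g.pmA_eq hγ.Rp⟩

/-- the structure theorem, up to the determination of the permutations -/
theorem out_struct [Finite F] (hcl : SAC T F) (hd : T.chkDesc = true)
    (hR : (Nat.card (g.pmO (F := F)).range = 1 ∨ Nat.card (g.pmO (F := F)).range = 2) ∨
      (Nat.card (g.pmO (F := F)).range = 6 ∧ ∃ a ∈ (g.pmO (F := F)).range, ∃ b ∈ (g.pmO (F := F)).range, a * b ≠ b * a))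
    (Dbar Fbar : Subgroup (Cfsg.Out ↥(D.group F)))
    (hDbar : Dbar = (Subgroup.closure {φ : MulAut ↥(D.group F) | D.IsDiagonalAut φ}).map (QuotientGroup.mk' (Cfsg.Inn ↥(D.group F))))
    (hFbar : Fbar = (Subgroup.closure {φ : MulAut ↥(D.group F) | D.IsFieldAut φ}).map (QuotientGroup.mk' (Cfsg.Inn ↥(D.group F)))) :
    Dbar.Normal ∧ IsMulCommutative ↥Dbar ∧ IsCyclic ↥Fbar ∧ (Dbar ⊔ Fbar).Normal ∧
      ((Dbar ⊔ Fbar).index = 1 ∨ (Dbar ⊔ Fbar).index = 2 ∨
        ((Dbar ⊔ Fbar).index = 6 ∧ ¬ commutator (Cfsg.Out ↥(D.group F)) ≤ Dbar ⊔ Fbar)) := by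
  rw [g.diag_closure hd] at hDbar
  rw [g.field_closure] at hFbar
  have hD : Dbar = (g.dH (F := F)).range.map (qO D F) := hDbar
  have hF : Fbar = (g.fH (F := F)).range.map (qO D F) := hFbar
  have hsup : Dbar ⊔ Fbar = g.pmO.ker := by rw [hD, hF]; exact g.sup_eq_ker hcl
  have hidx : (Dbar ⊔ Fbar).index = Nat.card (g.pmO (F := F)).range := by rw [hsup, Subgroup.index_ker]
  refine ⟨?_, ?_, ?_, ?_, ?_⟩
  · rw [hD]; exact g.D_normal hcl
  · rw [hD]; exact g.D_comm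
  · rw [hF]; exact g.F_cyclic
  · rw [hsup]; infer_instance
  · rw [hidx]
    rcases hR with (h | h) | ⟨h, a, ⟨x, hx⟩, b, ⟨y, hy⟩, hab⟩
    · left; exact h
    · right; left; exact h
    · right; right
      refine ⟨h, ?_⟩
      rw [hsup]
      intro hcon
      have h1 : x * y * x⁻¹ * y⁻¹ ∈ commutator (Cfsg.Out ↥(D.group F)) :=
        Subgroup.commutator_mem_commutator (Subgroup.mem_top x) (Subgroup.mem_top y)
      have h2 := hcon h1
      rw [MonoidHom.mem_ker, map_mul, map_mul, map_mul, map_inv, map_inv, hx, hy] at h2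
      apply hab
      rw [mul_inv_eq_one, mul_inv_eq_iff_eq_mul] at h2
      exact h2

end Mat

end Good3

theorem card_one_of {α : Type*} [Group α] {K : Subgroup α} (h : ∀ a ∈ K, a = 1) : Nat.card K = 1 := by
  rw [Nat.card_eq_one_iff_unique]
  refine ⟨⟨?_⟩, ⟨1⟩⟩
  rintro ⟨a, ha⟩ ⟨b, hb⟩
  apply Subtype.ext
  show a = b
  rw [h a ha, h b hb]

theorem card_two_of {α : Type*} [Group α] {K : Subgroup α} {s : α} (h : ∀ a ∈ K, a = 1 ∨ a = s) : Nat.card K = 1 ∨ Nat.card K = 2 := by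
  classical
  have : Finite K := by
    have hsub : (K : Set α) ⊆ {1, s} := fun a ha => by
      rcases h a ha with h | h <;> simp [h]
    exact (Set.toFinite {1, s}).subset hsub
  have h1 : 0 < Nat.card K := Nat.card_pos
  have h2 : Nat.card K ≤ 2 := by
    have hinj : Function.Injective (fun a : K => decide ((a : α) = 1)) := by
      rintro ⟨a, ha⟩ ⟨b, hb⟩ hab
      apply Subtype.ext
      show a = b
      simp only [decide_eq_decide] at hab
      rcases h a ha with h1 | h1 <;> rcases h b hb with h2 | h2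
      · rw [h1, h2]
      · have := hab.1 h1; rw [h1, this]
      · have := hab.2 h2; rw [h2, this]
      · rw [h1, h2]
    calc Nat.card K ≤ Nat.card Bool := Nat.card_le_card_of_injective _ hinj
      _ = 2 := by simp
  omega

/-- adjacency of D4 -/
def aD4 : Fin 4 → Fin 4 → Bool := ![![false, true, false, false], ![true, false, true, true], ![false, true, false, false], ![false, true, false, false]]
theorem am_D4 : ∀ i j : Fin 4, i ≠ j → (decide (tD4.A i (tD4.sim j) = 0) = !aD4 i j) := by decide +kernel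

theorem perm_D4 : ∀ ρ : Equiv.Perm (Fin 4), (∀ i j : Fin 4, i ≠ j → aD4 (ρ i) (ρ j) = aD4 i j) → ρ 1 = 1 := by decide +kernel

def rD4a : Equiv.Perm (Fin 4) := Equiv.swap 0 2 * Equiv.swap 2 3
def rD4c : Equiv.Perm (Fin 4) := Equiv.swap 2 3
theorem rD4a_L (i : Fin 4) : ((rD4a i : Fin 4) : ℕ) = [2, 1, 3, 0].getD i 0 := by
  revert i; decide +kernel
theorem rD4c_L (i : Fin 4) : ((rD4c i : Fin 4) : ℕ) = [0, 1, 3, 2].getD i 0 := by
  revert i; decide +kernel
theorem rD4_gen : ∀ ρ : Equiv.Perm (Fin 4), ρ 1 = 1 → ρ = 1 ∨ ρ = rD4a ∨ ρ = rD4a * rD4a ∨ ρ = rD4c ∨ ρ = rD4a * rD4c ∨ ρ = rD4a * rD4a * rD4c := by decide +kernel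
theorem rD4_card : Fintype.card {ρ : Equiv.Perm (Fin 4) // ρ 1 = 1} = 6 := by decide +kernel
theorem rD4_nc : rD4a * rD4c ≠ rD4c * rD4a := by decide +kernel

theorem isGr_D4a {F : Type*} [Field F] [Finite F] : ∃ σ : chevD4.group F ≃* chevD4.group F, good3_D4.IsGr σ rD4a :=
  good3_D4.isGr_one tr_D4 sl_D4 gdD4a_ok gdD4b_ok chkInv_D4a chkL1_D4a chkL1_D4b chkS_D4a pos_D4a (ρ := rD4a) rD4a_L

theorem isGr_D4c {F : Type*} [Field F] [Finite F] : ∃ σ : chevD4.group F ≃* chevD4.group F, good3_D4.IsGr σ rD4c :=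
  good3_D4.isGr_one tr_D4 sl_D4 gdD4c_ok gdD4c_ok chkInv_D4c chkL1_D4c chkL1_D4c chkS_D4c pos_D4c (ρ := rD4c) rD4c_L

theorem pm_D4 {F : Type*} [Field F] [Finite F] : Nat.card (good3_D4.pmO (F := F)).range = 6 ∧
    ∃ a ∈ (good3_D4.pmO (F := F)).range, ∃ b ∈ (good3_D4.pmO (F := F)).range, a * b ≠ b * a := by
  have hcl : Good3.SAC tD4 F := good4_D4.sac_SL sl_D4
  have ha : rD4a ∈ (good3_D4.pmO (F := F)).range := (good3_D4.mem_pm_range hcl).2 isGr_D4a
  have hc : rD4c ∈ (good3_D4.pmO (F := F)).range := (good3_D4.mem_pm_range hcl).2 isGr_D4c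
  refine ⟨?_, rD4a, ha, rD4c, hc, rD4_nc⟩
  have hmem : ∀ ρ : Equiv.Perm (Fin 4), ρ ∈ (good3_D4.pmO (F := F)).range ↔ ρ 1 = 1 := by
    intro ρ
    constructor
    · intro h
      obtain ⟨γ, hγ⟩ := (good3_D4.mem_pm_range hcl).1 h
      apply perm_D4
      intro i j hij
      have h0 : ∀ i j : Fin 4, i ≠ j → tD4.A i (tD4.sim j) = 0 → tD4.A (ρ i) (tD4.sim (ρ j)) = 0 := fun i j hij hA => hγ.adj hij hA
      have h1 := adj_iff_of (P := fun i j : Fin 4 => tD4.A i (tD4.sim j) = 0) h0 i j hij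
      have h2 := am_D4 i j hij
      have h3 := am_D4 (ρ i) (ρ j) (fun h => hij (ρ.injective h))
      rw [← Bool.not_inj_iff, ← h2, ← h3]
      exact decide_eq_decide.2 h1.symm
    · intro h
      rcases rD4_gen ρ h with h | h | h | h | h | h <;> rw [h]
      · exact Subgroup.one_mem _
      · exact ha
      · exact Subgroup.mul_mem _ ha ha
      · exact hc
      · exact Subgroup.mul_mem _ ha hc
      · exact Subgroup.mul_mem _ (Subgroup.mul_mem _ ha ha) hc
  have e : ↥(good3_D4.pmO (F := F)).range ≃ {ρ : Equiv.Perm (Fin 4) // ρ 1 = 1} := Equiv.subtypeEquivRight hmem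
  rw [Nat.card_congr e, Nat.card_eq_fintype_card, rD4_card]

theorem S2159_main {F : Type*} [Field F] [Finite F] (D : Cfsg.Lie.ChevalleyDatum) (hD : D ∈ [Cfsg.Lie.chevG2, Cfsg.Lie.chevB2, Cfsg.Lie.chevD4, Cfsg.Lie.chevF4, Cfsg.Lie.chevE6, Cfsg.Lie.chevE7, Cfsg.Lie.chevE8])
    (Dbar Fbar : Subgroup (Cfsg.Out ↥(D.group F)))
    (hDbar : Dbar = (Subgroup.closure {φ : MulAut ↥(D.group F) | D.IsDiagonalAut φ}).map (QuotientGroup.mk' (Cfsg.Inn ↥(D.group F))))
    (hFbar : Fbar = (Subgroup.closure {φ : MulAut ↥(D.group F) | D.IsFieldAut φ}).map (QuotientGroup.mk' (Cfsg.Inn ↥(D.group F)))) :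
    Dbar.Normal ∧ IsMulCommutative ↥Dbar ∧ IsCyclic ↥Fbar ∧ (Dbar ⊔ Fbar).Normal ∧
      ((Dbar ⊔ Fbar).index = 1 ∨ (Dbar ⊔ Fbar).index = 2 ∨
        ((Dbar ⊔ Fbar).index = 6 ∧ ¬ commutator (Cfsg.Out ↥(D.group F)) ≤ Dbar ⊔ Fbar)) := by
  simp only [List.mem_cons, List.not_mem_nil, or_false] at hD
  rcases hD with h | h | h | h | h | h | h <;> subst h
  · refine good3_G2.out_struct sac_G2 desc_G2 (Or.inl (card_two_of (s := (Equiv.swap 0 1 : Equiv.Perm (Fin 2))) ?_)) Dbar Fbar hDbar hFbar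
    intro ρ _
    rcases perm2 ρ with h | h
    · left
      apply Equiv.ext
      show ∀ i : Fin 2, _
      rw [Fin.forall_fin_two]; exact h
    · right
      apply Equiv.ext
      show ∀ i : Fin 2, _
      rw [Fin.forall_fin_two]; exact h
  · refine good3_B2.out_struct sac_B2 desc_B2 (Or.inl (card_two_of (s := (Equiv.swap 0 1 : Equiv.Perm (Fin 2))) ?_)) Dbar Fbar hDbar hFbar
    intro ρ _
    rcases perm2 ρ with h | h
    · left
      apply Equiv.ext
      show ∀ i : Fin 2, _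
      rw [Fin.forall_fin_two]; exact h
    · right
      apply Equiv.ext
      show ∀ i : Fin 2, _
      rw [Fin.forall_fin_two]; exact h
  · exact good3_D4.out_struct (good4_D4.sac_SL sl_D4) desc_D4 (Or.inr pm_D4) Dbar Fbar hDbar hFbar
  · refine good3_F4.out_struct sac_F4 desc_F4 (Or.inl (card_two_of (s := (Fin.revPerm : Equiv.Perm (Fin 4))) ?_)) Dbar Fbar hDbar hFbar
    intro ρ hρ
    obtain ⟨γ, hγ⟩ := (good3_F4.mem_pm_range sac_F4).1 hρ
    rcases perm4 ρ (by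
      intro i j hij h
      have h7 := hγ.adj (i := i) (j := j) hij
      have h8 : tF4.A (i : Fin 4) (tF4.sim (j : Fin 4)) = cF4 i j := cm_F4 i j
      have h9 : tF4.A ((ρ i : Fin 4) : ℕ) (tF4.sim ((ρ j : Fin 4) : ℕ)) = cF4 (ρ i) (ρ j) := cm_F4 _ _
      exact h9.symm.trans (h7 (h8.trans h))) with h | h
    · left
      apply Equiv.ext
      exact fin4_forall h.1 h.2.1 h.2.2.1 h.2.2.2
    · right
      apply Equiv.ext
      exact fin4_forall h.1 h.2.1 h.2.2.1 h.2.2.2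
  · refine good3_E6.out_struct (good4_E6.sac_SL sl_E6) desc_E6 (Or.inl (card_two_of (s := sE6) ?_)) Dbar Fbar hDbar hFbar
    intro ρ hρ
    obtain ⟨γ, hγ⟩ := (good3_E6.mem_pm_range (good4_E6.sac_SL sl_E6)).1 hρ
    rcases perm_E6 ρ (fun i j hij hA => hγ.adj hij hA) with h | h
    · left
      apply Equiv.ext
      show ∀ i : Fin 6, _
      intro i
      fin_cases i
      · exact h.1
      · exact h.2.1
      · exact h.2.2.1
      · exact h.2.2.2.1
      · exact h.2.2.2.2.1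
      · exact h.2.2.2.2.2
    · right
      apply Equiv.ext
      show ∀ i : Fin 6, _
      intro i
      fin_cases i
      · exact h.1
      · exact h.2.1
      · exact h.2.2.1
      · exact h.2.2.2.1
      · exact h.2.2.2.2.1
      · exact h.2.2.2.2.2
  · refine good3_E7.out_struct (good4_E7.sac_SL sl_E7) desc_E7 (Or.inl (Or.inl (card_one_of ?_))) Dbar Fbar hDbar hFbar
    intro ρ hρ
    obtain ⟨γ, hγ⟩ := (good3_E7.mem_pm_range (good4_E7.sac_SL sl_E7)).1 hρ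
    exact perm_E7 ρ (fun i j hij hA => hγ.adj hij hA)
  · refine good3_E8.out_struct (good4_E8.sac_SL sl_E8) desc_E8 (Or.inl (Or.inl (card_one_of ?_))) Dbar Fbar hDbar hFbar
    intro ρ hρ
    obtain ⟨γ, hγ⟩ := (good3_E8.mem_pm_range (good4_E8.sac_SL sl_E8)).1 hρ
    exact perm_E8 ρ (fun i j hij hA => hγ.adj hij hA)

end CfsgLib.Chev
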