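import Mathlib
import Cfsg.Agent.EqBase
import Cfsg.Agent.S0016
import Cfsg.Agent.S0071
import Cfsg.Agent.S0112
import Cfsg.Agent.S0662
/-!
# Groups whose non-cyclic subgroups are self-centralizing (helper11)
-/
set_option autoImplicit false
set_option linter.all false
open Cfsg

namespace CfsgLib.SC11

universe u

/-- every non-cyclic subgroup is self-centralizing -/
def SNC (G : Type*) [Group G] : Prop := ∀ H : Subgroup G, ¬ IsCyclic ↥H → Subgroup.centralizer (H : Set G) ≤ H

theorem snc_sub {G : Type*} [Group G] (h : SNC G) (K : Subgroup G) : SNC ↥K := by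
  intro H hH x hx
  have h1 : ¬ IsCyclic ↥(H.map K.subtype) := by
    intro hc
    apply hH
    exact isCyclic_of_surjective (H.equivMapOfInjective K.subtype K.subtype_injective).symm (MulEquiv.surjective _)
  have h2 := h _ h1
  have h3 : (x : G) ∈ Subgroup.centralizer ((H.map K.subtype : Subgroup G) : Set G) := by
    rw [Subgroup.mem_centralizer_iff]
    rintro _ ⟨y, hy, rfl⟩
    have := (Subgroup.mem_centralizer_iff.mp hx) y hy
    exact congrArg K.subtype this
  obtain ⟨y, hy, hyx⟩ := h2 h3
  have : y = x := Subtype.ext hyx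
  exact this ▸ hy

theorem snc_equiv {G G' : Type*} [Group G] [Group G'] (e : G ≃* G') (h : SNC G) : SNC G' := by
  intro H hH x hx
  have h1 : ¬ IsCyclic ↥(H.comap e.toMonoidHom) := by
    intro hc
    apply hH
    have h2 : (H.comap e.toMonoidHom).map e.toMonoidHom = H := Subgroup.map_comap_eq_self_of_surjective e.surjective H
    rw [← h2]
    exact isCyclic_of_surjective ((H.comap e.toMonoidHom).equivMapOfInjective e.toMonoidHom e.injective) (MulEquiv.surjective _)
  have h2 := h _ h1
  have h3 : e.symm x ∈ Subgroup.centralizer ((H.comap e.toMonoidHom : Subgroup G) : Set G) := by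
    rw [Subgroup.mem_centralizer_iff]
    intro y hy
    have := (Subgroup.mem_centralizer_iff.mp hx) (e y) hy
    apply e.injective
    rw [map_mul, map_mul, e.apply_symm_apply, this]
  have h4 := h2 h3
  have h5 : e (e.symm x) ∈ H := h4
  rwa [e.apply_symm_apply] at h5

/-- restriction of an automorphism to an invariant subgroup -/
def restr {Q : Type*} [Group Q] (α : MulAut Q) (M : Subgroup Q) (hM : M.map α.toMonoidHom = M) : MulAut ↥M :=
  (α.subgroupMap M).trans (MulEquiv.subgroupCongr hM)

theorem restr_apply {Q : Type*} [Group Q] (α : MulAut Q) (M : Subgroup Q) (hM : M.map α.toMonoidHom = M) (x : ↥M) :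
    ((restr α M hM x : ↥M) : Q) = α x := rfl

theorem restr_pow {Q : Type*} [Group Q] (α : MulAut Q) (M : Subgroup Q) (hM : M.map α.toMonoidHom = M) (k : ℕ) (x : ↥M) :
    ((((restr α M hM) ^ k : MulAut ↥M) x : ↥M) : Q) = (α ^ k : MulAut Q) x := by
  induction k generalizing x with
  | zero => simp
  | succ k ih =>
    rw [pow_succ, pow_succ, MulAut.mul_apply, MulAut.mul_apply, ih, restr_apply]


/-- the fixed points of an automorphism -/
def fixS {Q : Type*} [Group Q] (α : MulAut Q) : Subgroup Q where
  carrier := {x | α x = x}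
  mul_mem' := by
    intro a b ha hb
    simp only [Set.mem_setOf_eq] at *
    rw [map_mul, ha, hb]
  one_mem' := map_one α
  inv_mem' := by
    intro a ha
    simp only [Set.mem_setOf_eq] at *
    rw [map_inv, ha]

theorem mem_fixS {Q : Type*} [Group Q] (α : MulAut Q) (x : Q) : x ∈ fixS α ↔ α x = x := Iff.rfl

theorem fixS_top {Q : Type*} [Group Q] (α : MulAut Q) (h : fixS α = ⊤) : α = 1 := by
  ext x
  have : x ∈ fixS α := by rw [h]; trivial
  exact this

/-- in a non-cyclic p-group, a non-cyclic abelian subgroup of order p^2 containing a central subgroup -/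
theorem exists_E {p : ℕ} [hp : Fact p.Prime] (Q : Type*) [Group Q] [Finite Q] (hQ : IsPGroup p Q)
    (hnu : ∃ H K : Subgroup Q, Nat.card H = p ∧ Nat.card K = p ∧ H ≠ K) :
    ∃ E : Subgroup Q, Nat.card E = p ^ 2 ∧ ¬ IsCyclic ↥E ∧ E ≤ Subgroup.centralizer (E : Set Q) := by
  obtain ⟨H, K, hH, hK, hHK⟩ := hnu
  haveI : Nontrivial Q := by
    by_contra hn
    rw [not_nontrivial_iff_subsingleton] at hn
    exact hHK (Subsingleton.elim _ _)
  haveI := hQ.center_nontrivial
  have hc1 : 1 < Nat.card (Subgroup.center Q) := Finite.one_lt_card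
  obtain ⟨k, hk⟩ := (hQ.to_subgroup (Subgroup.center Q)).exists_card_eq
  have hk0 : k ≠ 0 := by rintro rfl; rw [pow_zero] at hk; omega
  have hdvd : p ∣ Nat.card (Subgroup.center Q) := by rw [hk]; exact dvd_pow_self p hk0
  obtain ⟨z, hz⟩ := exists_prime_orderOf_dvd_card' p hdvd
  set Z : Subgroup Q := Subgroup.zpowers (z : Q) with hZ
  have hZc : Nat.card Z = p := by rw [hZ, Nat.card_zpowers, Subgroup.orderOf_coe, hz]
  have hzc : ∀ y ∈ Z, ∀ x, y * x = x * y := by
    intro y hy x
    have h1 : y ∈ Subgroup.center Q := by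
      have : Z ≤ Subgroup.center Q := by rw [hZ, Subgroup.zpowers_le]; exact z.2
      exact this hy
    exact ((Subgroup.mem_center_iff.mp h1) x).symm
  obtain ⟨H', hH', hne⟩ : ∃ H' : Subgroup Q, Nat.card H' = p ∧ H' ≠ Z := by
    by_cases h : H = Z
    · exact ⟨K, hK, fun h2 => hHK (h.trans h2.symm)⟩
    · exact ⟨H, hH, h⟩
  haveI hZn : Z.Normal := ⟨fun y hy g => by rw [← hzc y hy g, mul_inv_cancel_right]; exact hy⟩
  have hinf : Z ⊓ H' = ⊥ := by
    have h1 : Nat.card ↥(Z ⊓ H') ∣ p := by
      have := Subgroup.card_dvd_of_le (inf_le_left : Z ⊓ H' ≤ Z)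
      rwa [hZc] at this
    rcases (Nat.dvd_prime hp.out).mp h1 with h2 | h2
    · exact Subgroup.card_eq_one.mp h2
    · exfalso
      have h3 : Z ⊓ H' = Z := Subgroup.eq_of_le_of_card_ge inf_le_left (by rw [h2, hZc])
      have h4 : Z ⊓ H' = H' := Subgroup.eq_of_le_of_card_ge inf_le_right (by rw [h2, hH'])
      exact hne (h4.symm.trans h3)
  have hcard : Nat.card ↥(H' ⊔ Z) = p ^ 2 := by
    have h1 : Nat.card Z * Z.relIndex (H' ⊔ Z) = Nat.card ↥(H' ⊔ Z) := by
      have := Subgroup.relIndex_mul_relIndex (⊥ : Subgroup Q) Z (H' ⊔ Z) bot_le le_sup_right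
      rwa [Subgroup.relIndex_bot_left, Subgroup.relIndex_bot_left] at this
    rw [Subgroup.relIndex_sup_right, ← Subgroup.inf_relIndex_right, hinf, Subgroup.relIndex_bot_left, hZc, hH'] at h1
    rw [← h1, sq]
  haveI : IsCyclic ↥H' := isCyclic_of_prime_card hH'
  have hHc : ∀ a ∈ H', ∀ b ∈ H', a * b = b * a := by
    intro a ha b hb
    have h1 : (⟨a, ha⟩ : ↥H') * ⟨b, hb⟩ = ⟨b, hb⟩ * ⟨a, ha⟩ := isMulCommutative_iff.mp (IsCyclic.commutative (α := ↥H')) _ _
    exact congrArg Subtype.val h1
  refine ⟨H' ⊔ Z, hcard, ?_, ?_⟩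
  · intro hcyc
    have h1 : ∀ x : ↥(H' ⊔ Z), x ^ p = 1 := by
      rintro ⟨x, hx⟩
      obtain ⟨a, ha, b, hb, rfl⟩ := Subgroup.mem_sup_of_normal_right.mp hx
      apply Subtype.ext
      show (a * b) ^ p = 1
      have hab : Commute a b := (hzc b hb a).symm
      rw [hab.mul_pow]
      have h2 : a ^ p = 1 := by
        have := pow_card_eq_one' (x := (⟨a, ha⟩ : ↥H'))
        rw [hH'] at this
        exact congrArg Subtype.val this
      have h3 : b ^ p = 1 := by
        have := pow_card_eq_one' (x := (⟨b, hb⟩ : ↥Z))
        rw [hZc] at this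
        exact congrArg Subtype.val this
      rw [h2, h3, one_mul]
    obtain ⟨g, hg⟩ := hcyc.exists_generator
    have h2 : orderOf g = Nat.card ↥(H' ⊔ Z) := orderOf_eq_card_of_forall_mem_zpowers hg
    have h3 : orderOf g ∣ p := orderOf_dvd_of_pow_eq_one (h1 g)
    rw [h2, hcard] at h3
    have h4 := Nat.le_of_dvd hp.out.pos h3
    have h5 := hp.out.one_lt
    nlinarith
  · intro x hx
    rw [Subgroup.mem_centralizer_iff]
    intro y hy
    obtain ⟨a, ha, b, hb, rfl⟩ := Subgroup.mem_sup_of_normal_right.mp hx
    obtain ⟨c, hc, d, hd, rfl⟩ := Subgroup.mem_sup_of_normal_right.mp hy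
    calc c * d * (a * b) = (c * (d * a)) * b := by group
      _ = c * (a * d) * b := by rw [hzc d hd a]
      _ = (c * a) * (d * b) := by group
      _ = (a * c) * (b * d) := by rw [hHc c hc a ha, hzc d hd b]
      _ = a * (c * b) * d := by group
      _ = a * (b * c) * d := by rw [hzc b hb c]
      _ = a * b * (c * d) := by group

/-- an automorphism of prime order `r > p` of a `p`-group with self-centralizing noncyclic subgroups is trivial -/
theorem aut_triv {p r : ℕ} [hp : Fact p.Prime] [hr : Fact r.Prime] (hp2 : p ≠ 2) (hpr : p < r) : 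
    ∀ (m : ℕ) (Q : Type u) [Group Q] [Finite Q], Nat.card Q ≤ m → IsPGroup p Q → SNC Q → ∀ α : MulAut Q, α ^ r = 1 → α = 1 := by
  intro m
  induction m with
  | zero =>
    intro Q _ _ h
    have := Nat.card_pos (α := Q)
    omega
  | succ m ih =>
    intro Q _ _ hm hQ hS α hα
    have hrp1 : ¬ r ≤ p + 1 := by
      intro h
      have h1 : r = p + 1 := by omega
      rcases hp.out.eq_two_or_odd' with h2 | h2
      · exact hp2 h2
      · rcases hr.out.eq_two_or_odd' with h3 | h3
        · have := hp.out.two_le; omega
        · rw [h1] at h3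
          exact (Nat.not_even_iff_odd.mpr h3) (h2.add_odd odd_one)
    obtain ⟨n, hn⟩ := hQ.exists_card_eq
    by_cases hcyc : IsCyclic Q
    · have h1 : orderOf α ∣ Nat.totient (p ^ n) := by
        rw [← hn, ← IsCyclic.card_mulAut]
        exact orderOf_dvd_natCard α
      have h2 : orderOf α ∣ r := orderOf_dvd_of_pow_eq_one hα
      rcases (Nat.dvd_prime hr.out).mp h2 with h3 | h3
      · exact orderOf_eq_one_iff.mp h3
      · exfalso
        rw [h3] at h1
        rcases Nat.eq_zero_or_pos n with h0 | h0
        · rw [h0, pow_zero, Nat.totient_one] at h1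
          exact hr.out.one_lt.ne' (Nat.dvd_one.mp h1)
        · rw [Nat.totient_prime_pow hp.out h0] at h1
          rcases hr.out.dvd_mul.mp h1 with h4 | h4
          · have h5 := Nat.le_of_dvd hp.out.pos (hr.out.dvd_of_dvd_pow h4)
            omega
          · have h5 := Nat.le_of_dvd (by have := hp.out.two_le; omega) h4
            omega
    -- noncyclic
    have hnu : ∃ H K : Subgroup Q, Nat.card H = p ∧ Nat.card K = p ∧ H ≠ K := by
      by_contra hcon
      push Not at hcon
      rcases Cfsg.Agent.S0016.result p hQ hcon with h | ⟨h, -⟩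
      · exact hcyc h
      · exact hp2 h
    obtain ⟨E, hE2, hEn, hEc⟩ := exists_E Q hQ hnu
    have hEe : Subgroup.centralizer (E : Set Q) = E := le_antisymm (hS E hEn) hEc
    have hn2 : 2 ≤ n := by
      have h1 : Nat.card E ∣ Nat.card Q := Subgroup.card_subgroup_dvd_card E
      rw [hE2, hn] at h1
      exact (Nat.pow_dvd_pow_iff_le_right hp.out.one_lt).mp h1
    have hrg : IsPGroup r ↥(Subgroup.zpowers α) := by
      rw [IsPGroup.iff_card]
      have h2 : orderOf α ∣ r := orderOf_dvd_of_pow_eq_one hα
      rcases (Nat.dvd_prime hr.out).mp h2 with h3 | h3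
      · exact ⟨0, by rw [Nat.card_zpowers, h3, pow_zero]⟩
      · exact ⟨1, by rw [Nat.card_zpowers, h3, pow_one]⟩
    rcases Nat.lt_or_ge 2 n with hn3 | hn3
    · -- maximal class
      have hcl := Cfsg.Agent.S0112.result n hn E hE2 hEe
      have hmx := (Cfsg.Agent.S0662.result n hn hcl hn3).2
      -- each N is invariant
      have hinv : ∀ N : Subgroup Q, N.Normal → N.index = p → N.map α.toMonoidHom = N := by
        intro N hN hNi
        by_contra hne
        -- injective map from Fin r
        have hstep : ∀ k : ℕ, (N.map ((α ^ k : MulAut Q)).toMonoidHom).Normal ∧ (N.map ((α ^ k : MulAut Q)).toMonoidHom).index = p := by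
          intro k
          constructor
          · exact hN.map _ (α ^ k : MulAut Q).surjective
          · rw [Subgroup.index_map_of_bijective (α ^ k : MulAut Q).bijective, hNi]
        let f : Fin r → {N : Subgroup Q // N.Normal ∧ N.index = p} := fun k => ⟨N.map ((α ^ (k : ℕ) : MulAut Q)).toMonoidHom, hstep k⟩
        have hmm : ∀ a b : ℕ, (N.map ((α ^ a : MulAut Q)).toMonoidHom).map ((α ^ b : MulAut Q)).toMonoidHom = N.map ((α ^ (b + a) : MulAut Q)).toMonoidHom := by
          intro a b
          rw [Subgroup.map_map, pow_add]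
          rfl
        have hcop : ∀ d : ℕ, d < r → d ≠ 0 → N.map ((α ^ d : MulAut Q)).toMonoidHom = N → False := by
          intro d hd hd0 h
          apply hne
          have hco : Nat.Coprime d r := by
            rw [Nat.coprime_comm, hr.out.coprime_iff_not_dvd]
            intro h2
            have := Nat.le_of_dvd (Nat.pos_of_ne_zero hd0) h2
            omega
          have hall : ∀ j : ℕ, N.map ((α ^ (d * j) : MulAut Q)).toMonoidHom = N := by
            intro j
            induction j with
            | zero =>
              rw [mul_zero, pow_zero]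
              exact Subgroup.map_id N
            | succ j ihj =>
              have := hmm (d * j) d
              rw [ihj, h] at this
              rw [mul_add, mul_one, add_comm, ← this]
          obtain ⟨j, hj⟩ := Nat.exists_mul_mod_eq_one_of_coprime hco hr.out.one_lt
          have h3 := hall j
          have h4 : (α ^ (d * j) : MulAut Q) = α := by
            rw [← Nat.div_add_mod (d * j) r, hj.2, pow_add, pow_mul, hα, one_pow, one_mul, pow_one]
          rw [h4] at h3
          exact h3
        have hinj : Function.Injective f := by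
          intro a b hab
          by_contra hab2
          have hab' : N.map ((α ^ (a : ℕ) : MulAut Q)).toMonoidHom = N.map ((α ^ (b : ℕ) : MulAut Q)).toMonoidHom := congrArg Subtype.val hab
          wlog hlt : (a : ℕ) < (b : ℕ) generalizing a b
          · exact this hab.symm (Ne.symm hab2) hab'.symm (by
              have h5 : (a : ℕ) ≠ b := fun h => hab2 (Fin.ext h)
              omega)
          -- apply α^(r - a)
          have h1 := congrArg (fun X => Subgroup.map ((α ^ (r - (a : ℕ)) : MulAut Q)).toMonoidHom X) hab'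
          rw [hmm, hmm] at h1
          have ha := a.2
          have hb := b.2
          have e1 : (α ^ (r - (a : ℕ) + a) : MulAut Q) = 1 := by rw [Nat.sub_add_cancel ha.le, hα]
          have e2 : (α ^ (r - (a : ℕ) + b) : MulAut Q) = α ^ ((b : ℕ) - a) := by
            rw [show r - (a : ℕ) + b = r + (b - a) by omega, pow_add, hα, one_mul]
          rw [e1, e2] at h1
          apply hcop ((b : ℕ) - a) (by omega) (by omega)
          rw [← h1]
          exact Subgroup.map_id N
        have hcard := Nat.card_le_card_of_injective f hinj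
        rw [hmx, Nat.card_fin] at hcard
        exact hrp1 hcard
      have hfix : ∀ N : Subgroup Q, N.Normal → N.index = p → N ≤ fixS α := by
        intro N hN hNi x hx
        have hNm := hinv N hN hNi
        have hlt : Nat.card N ≤ m := by
          have h1 := N.card_mul_index
          rw [hNi] at h1
          have h2 := Nat.card_pos (α := N)
          have h3 := hp.out.two_le
          nlinarith
        have h1 := ih ↥N hlt (hQ.to_subgroup N) (snc_sub hS N) (restr α N hNm) (by
          ext x
          rw [restr_pow, hα]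
          rfl)
        rw [mem_fixS]
        have h2 := restr_apply α N hNm ⟨x, hx⟩
        rw [h1] at h2
        exact h2.symm
      -- two distinct
      have hcard2 : 1 < Nat.card {N : Subgroup Q // N.Normal ∧ N.index = p} := by
        rw [hmx]; have := hp.out.two_le; omega
      haveI : Nontrivial {N : Subgroup Q // N.Normal ∧ N.index = p} := Finite.one_lt_card_iff_nontrivial.mp hcard2
      obtain ⟨⟨N₁, hN₁, hi₁⟩, ⟨N₂, hN₂, hi₂⟩, hne⟩ := exists_pair_ne {N : Subgroup Q // N.Normal ∧ N.index = p}
      apply fixS_top
      rw [eq_top_iff]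
      have hsup : N₁ ⊔ N₂ = ⊤ := by
        have h1 : (N₁ ⊔ N₂).index ∣ p := by
          rw [← hi₁]; exact Subgroup.index_dvd_of_le le_sup_left
        rcases (Nat.dvd_prime hp.out).mp h1 with h2 | h2
        · exact Subgroup.index_eq_one.mp h2
        · exfalso
          apply hne
          apply Subtype.ext
          show N₁ = N₂
          have key : ∀ A : Subgroup Q, A ≤ N₁ ⊔ N₂ → A.index = p → A = N₁ ⊔ N₂ := by
            intro A hA hAi
            apply Subgroup.eq_of_le_of_card_ge hA
            have e1 := A.card_mul_index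
            have e2 := (N₁ ⊔ N₂).card_mul_index
            rw [hAi] at e1
            rw [h2, ← e1] at e2
            exact le_of_eq (Nat.eq_of_mul_eq_mul_right hp.out.pos e2)
          rw [key N₁ le_sup_left hi₁, ← key N₂ le_sup_right hi₂]
      rw [← hsup]
      exact sup_le (hfix N₁ hN₁ hi₁) (hfix N₂ hN₂ hi₂)
    · -- order p^2
      have hn' : n = 2 := le_antisymm hn3 hn2
      subst hn'
      have hmod := hrg.card_modEq_card_fixedPoints (α := Q)
      have hfp : Nat.card (MulAction.fixedPoints ↥(Subgroup.zpowers α) Q) = Nat.card (fixS α) := by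
        apply Nat.card_congr
        refine Equiv.subtypeEquivRight ?_
        intro x
        rw [MulAction.mem_fixedPoints]
        constructor
        · intro h
          exact h ⟨α, Subgroup.mem_zpowers α⟩
        · rintro h ⟨β, hβ⟩
          obtain ⟨k, rfl⟩ := Subgroup.mem_zpowers_iff.mp hβ
          have h1 : α ∈ MulAction.stabilizer (MulAut Q) x := h
          exact Subgroup.zpow_mem _ h1 k
      rw [hfp, hn] at hmod
      have hdv : Nat.card (fixS α) ∣ p ^ 2 := by rw [← hn]; exact Subgroup.card_subgroup_dvd_card _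
      obtain ⟨j, hj, hjc⟩ := (Nat.dvd_prime_pow hp.out).mp hdv
      rw [hjc] at hmod
      have hle : p ^ j ≤ p ^ 2 := Nat.pow_le_pow_right hp.out.pos hj
      have hdvd : r ∣ p ^ 2 - p ^ j := (Nat.modEq_iff_dvd' hle).mp hmod.symm
      have hp3 := hp.out.two_le
      interval_cases j
      · exfalso
        rw [pow_zero] at hdvd
        have e : p ^ 2 - 1 = (p - 1) * (p + 1) := by
          obtain ⟨q, rfl⟩ : ∃ q, p = q + 1 := ⟨p - 1, by omega⟩
          rw [Nat.add_sub_cancel, sq]
          have : (q + 1) * (q + 1) = q * (q + 1 + 1) + 1 := by ring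
          omega
        rw [e] at hdvd
        rcases hr.out.dvd_mul.mp hdvd with h4 | h4
        · have h5 := Nat.le_of_dvd (by omega) h4
          omega
        · have h5 := Nat.le_of_dvd (by omega) h4
          omega
      · exfalso
        rw [pow_one] at hdvd
        have e : p ^ 2 - p = p * (p - 1) := by
          rw [sq, Nat.mul_sub, mul_one]
        rw [e] at hdvd
        rcases hr.out.dvd_mul.mp hdvd with h4 | h4
        · have h5 := Nat.le_of_dvd (by omega) h4
          omega
        · have h5 := Nat.le_of_dvd (by omega) h4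
          omega
      · apply fixS_top
        exact Subgroup.eq_top_of_card_eq _ (by rw [hjc, hn])

end CfsgLib.SC11
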