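import Mathlib
import Cfsg.Agent.EqBase
/-!
# prime powers 2^k ± 1 (helper11)
-/
set_option autoImplicit false
set_option linter.all false

namespace CfsgLib.SC11

theorem odd_dvd_two_pow {t : ℤ} {k : ℕ} (h : t ∣ 2 ^ k) (ho : Odd t) : t.natAbs = 1 := by
  have h1 : t.natAbs ∣ 2 ^ k := by
    have := Int.natAbs_dvd_natAbs.mpr h
    rwa [Int.natAbs_pow] at this
  have h2 : Nat.Coprime t.natAbs (2 ^ k) := Nat.Coprime.pow_right _ (Nat.coprime_two_right.mpr (Int.natAbs_odd.mpr ho))
  exact Nat.eq_one_of_dvd_coprimes h2 dvd_rfl h1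

theorem geo {p f k : ℕ} (hp : Odd p) (hf : Odd f) (s : ℤ) (hs : s = 1 ∨ s = -1) (h : ((p : ℤ) ^ f - s ^ f) = 2 ^ k) :
    ((p : ℤ) ^ f - s ^ f).natAbs = ((p : ℤ) - s).natAbs := by
  have h1 := Commute.geom_sum₂_mul (Commute.all (p : ℤ) s) f
  set T := ∑ i ∈ Finset.range f, (p : ℤ) ^ i * s ^ (f - 1 - i) with hT
  have hTo : Odd T := by
    have h2 : ((T : ℤ) : ZMod 2) = 1 := by
      have e1 : ((p : ℤ) : ZMod 2) = 1 := by
        rw [Int.cast_natCast]
        exact ZMod.natCast_eq_one_iff_odd.mpr hp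
      have e2 : ((s : ℤ) : ZMod 2) = 1 := by rcases hs with rfl | rfl <;> decide
      have e3 : ((f : ℕ) : ZMod 2) = 1 := ZMod.natCast_eq_one_iff_odd.mpr hf
      rw [hT, Int.cast_sum]
      have : ∀ i ∈ Finset.range f, (((p : ℤ) ^ i * s ^ (f - 1 - i) : ℤ) : ZMod 2) = 1 := by
        intro i _
        rw [Int.cast_mul, Int.cast_pow, Int.cast_pow, e1, e2, one_pow, one_pow, one_mul]
      rw [Finset.sum_congr rfl this, Finset.sum_const, Finset.card_range, nsmul_one, e3]
    by_contra hno
    rw [Int.not_odd_iff_even] at hno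
    obtain ⟨r, hr⟩ := hno
    rw [hr, Int.cast_add, CharTwo.add_self_eq_zero] at h2
    exact zero_ne_one h2
  have hTd : T ∣ 2 ^ k := by rw [← h, ← h1]; exact dvd_mul_right _ _
  have hT1 := odd_dvd_two_pow hTd hTo
  rw [← h1, Int.natAbs_mul, hT1, one_mul]

theorem nt {p f k : ℕ} (hp : p.Prime) (hp2 : p ≠ 2) (hf : f ≠ 0) (h : p ^ f = 2 ^ k + 1 ∨ p ^ f + 1 = 2 ^ k) :
    (p ^ f).Prime ∨ p ^ f = 9 := by
  have hpo : Odd p := hp.odd_of_ne_two hp2
  have hp3 : 3 ≤ p := by
    have := hp.two_le
    omega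
  rcases Nat.even_or_odd f with he | ho
  · obtain ⟨g, hg⟩ := he
    have hg0 : g ≠ 0 := by rintro rfl; exact hf hg
    set a := p ^ g with ha
    have haf : p ^ f = a * a := by rw [ha, ← pow_add, hg]
    have ha3 : 3 ≤ a := by
      calc 3 ≤ p := hp3
        _ = p ^ 1 := (pow_one p).symm
        _ ≤ p ^ g := Nat.pow_le_pow_right (by omega) (by omega)
    have hao : Odd a := hpo.pow
    rw [haf] at h ⊢
    rcases h with h | h
    · right
      obtain ⟨b, hb⟩ : ∃ b, a = b + 1 := ⟨a - 1, by omega⟩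
      have h1 : b * (b + 2) = 2 ^ k := by
        have : (b + 1) * (b + 1) = 2 ^ k + 1 := by rw [← hb]; exact h
        nlinarith
      have hb1 : b ∣ 2 ^ k := by rw [← h1]; exact dvd_mul_right _ _
      have hb2 : b + 2 ∣ 2 ^ k := by rw [← h1]; exact dvd_mul_left _ _
      obtain ⟨i, -, hi⟩ := (Nat.dvd_prime_pow Nat.prime_two).mp hb1
      obtain ⟨j, -, hj⟩ := (Nat.dvd_prime_pow Nat.prime_two).mp hb2
      rcases i with _ | _ | i
      · rw [pow_zero] at hi; omega
      · have : a = 3 := by rw [hb, hi]; norm_num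
        rw [this]
      · exfalso
        rcases j with _ | _ | j
        · rw [pow_zero] at hj; omega
        · rw [zero_add, pow_one] at hj; omega
        · have e1 : 2 ^ (i + 1 + 1) = 4 * 2 ^ i := by ring
          have e2 : 2 ^ (j + 1 + 1) = 4 * 2 ^ j := by ring
          omega
    · exfalso
      obtain ⟨c, hc⟩ := hao
      have h1 : a * a = 4 * (c * c + c) + 1 := by rw [hc]; ring
      rcases k with _ | _ | k
      · rw [pow_zero] at h
        nlinarith
      · rw [zero_add, pow_one] at h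
        nlinarith
      · have e1 : 2 ^ (k + 1 + 1) = 4 * 2 ^ k := by ring
        omega
  · have key : f = 1 := by
      have hinj : ∀ {n : ℕ}, p ^ f = p ^ n → f = n := fun hh => Nat.pow_right_injective (by omega) hh
      rcases h with h | h
      · have h1 := geo (k := k) hpo ho 1 (Or.inl rfl) (by
          rw [one_pow]
          have : ((p ^ f : ℕ) : ℤ) = ((2 ^ k + 1 : ℕ) : ℤ) := by rw [h]
          push_cast at this
          rw [this]; ring)
        rw [one_pow] at h1
        apply hinj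
        rw [pow_one]
        have h2 : ((p : ℤ) ^ f - 1).natAbs = p ^ f - 1 := by
          have h3 : 1 ≤ p ^ f := Nat.one_le_pow _ _ (by omega)
          zify [h3]
          rw [abs_of_nonneg]
          have : (1 : ℤ) ≤ (p : ℤ) ^ f := by exact_mod_cast h3
          linarith
        have h3 : ((p : ℤ) - 1).natAbs = p - 1 := by omega
        rw [h2, h3] at h1
        have h4 : 1 ≤ p ^ f := Nat.one_le_pow _ _ (by omega)
        omega
      · have h1 := geo (k := k) hpo ho (-1) (Or.inr rfl) (by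
          rw [ho.neg_one_pow]
          have : ((p ^ f + 1 : ℕ) : ℤ) = ((2 ^ k : ℕ) : ℤ) := by rw [h]
          push_cast at this
          rw [← this]; ring)
        rw [ho.neg_one_pow] at h1
        apply hinj
        rw [pow_one]
        have h2 : ((p : ℤ) ^ f - (-1)).natAbs = p ^ f + 1 := by
          have : (p : ℤ) ^ f - (-1) = ((p ^ f + 1 : ℕ) : ℤ) := by push_cast; ring
          rw [this, Int.natAbs_natCast]
        have h3 : ((p : ℤ) - (-1)).natAbs = p + 1 := by omega
        rw [h2, h3] at h1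
        omega
    left
    rw [key, pow_one]
    exact hp

end CfsgLib.SC11
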