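import Mathlib
import Cfsg.Agent.EqBase
import Cfsg.Agent.LibSC11a
/-!
# PSL(2,q) and self-centralizing non-cyclic subgroups (helper11)
-/
set_option autoImplicit false
set_option linter.all false
open Cfsg

namespace CfsgLib.SC11

open Matrix

section mat

variable {F : Type*} [Field F]

/-- non-scalar -/
def NS (X : Matrix (Fin 2) (Fin 2) F) : Prop := ¬ (X 0 1 = 0 ∧ X 1 0 = 0 ∧ X 0 0 = X 1 1)

theorem ext2 {X Y : Matrix (Fin 2) (Fin 2) F} (h1 : X 0 0 = Y 0 0) (h2 : X 0 1 = Y 0 1) (h3 : X 1 0 = Y 1 0) (h4 : X 1 1 = Y 1 1) :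
    X = Y := by
  ext i j
  fin_cases i <;> fin_cases j
  · exact h1
  · exact h2
  · exact h3
  · exact h4

theorem lin {X Y : Matrix (Fin 2) (Fin 2) F} (hX : NS X) (h : X * Y = Y * X) :
    ∃ a b : F, Y = a • (1 : Matrix (Fin 2) (Fin 2) F) + b • X := by
  have e00 := congrFun (congrFun h 0) 0
  have e01 := congrFun (congrFun h 0) 1
  have e10 := congrFun (congrFun h 1) 0
  have e11 := congrFun (congrFun h 1) 1
  simp only [Matrix.mul_apply, Fin.sum_univ_two] at e00 e01 e10 e11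
  by_cases h01 : X 0 1 = 0
  · by_cases h10 : X 1 0 = 0
    · have h3 : X 0 0 - X 1 1 ≠ 0 := fun h4 => hX ⟨h01, h10, sub_eq_zero.mp h4⟩
      have hY01 : Y 0 1 = 0 := by
        have : (X 0 0 - X 1 1) * Y 0 1 = 0 := by rw [h01] at e01; linear_combination e01
        exact (mul_eq_zero.mp this).resolve_left h3
      have hY10 : Y 1 0 = 0 := by
        have : (X 0 0 - X 1 1) * Y 1 0 = 0 := by rw [h10] at e10; linear_combination -e10
        exact (mul_eq_zero.mp this).resolve_left h3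
      refine ⟨Y 0 0 - (Y 0 0 - Y 1 1) / (X 0 0 - X 1 1) * X 0 0, (Y 0 0 - Y 1 1) / (X 0 0 - X 1 1), ?_⟩
      apply ext2 <;> simp [h01, h10, hY01, hY10]
      field_simp
      ring
    · refine ⟨Y 0 0 - Y 1 0 / X 1 0 * X 0 0, Y 1 0 / X 1 0, ?_⟩
      have hY01 : Y 0 1 = 0 := by
        rw [h01, zero_mul, mul_comm (X 0 0)] at e00
        have : Y 0 1 * X 1 0 = 0 := by linear_combination -e00
        exact (mul_eq_zero.mp this).resolve_right h10
      apply ext2 <;> simp [h01, hY01, h10]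
      field_simp
      linear_combination -e10
  · refine ⟨Y 0 0 - Y 0 1 / X 0 1 * X 0 0, Y 0 1 / X 0 1, ?_⟩
    apply ext2 <;> simp [h01]
    · field_simp
      linear_combination e00
    · field_simp
      linear_combination e01

theorem det_lin (X : Matrix (Fin 2) (Fin 2) F) (a b : F) :
    (a • (1 : Matrix (Fin 2) (Fin 2) F) + b • X).det = a ^ 2 + a * b * X.trace + b ^ 2 * X.det := by
  rw [Matrix.det_fin_two, Matrix.det_fin_two, Matrix.trace_fin_two]
  simp
  ring

theorem ch (X : Matrix (Fin 2) (Fin 2) F) (h : X.det = 1) : X * X = X.trace • X - 1 := by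
  rw [Matrix.det_fin_two] at h
  apply ext2 <;> simp [Matrix.mul_apply, Fin.sum_univ_two, Matrix.trace_fin_two]
  · linear_combination -h
  · ring
  · ring
  · linear_combination -h

end mat

section psl

variable {F : Type*} [Field F]

local notation "SL2" => Matrix.SpecialLinearGroup (Fin 2)
local notation "PSL2" => Matrix.ProjectiveSpecialLinearGroup (Fin 2)

theorem comm_lift {X Y : SL2 F} (h : (QuotientGroup.mk X : PSL2 F) * QuotientGroup.mk Y = QuotientGroup.mk Y * QuotientGroup.mk X) :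
    ∃ r : F, r * r = 1 ∧ (Y : Matrix (Fin 2) (Fin 2) F) * X = r • ((X : Matrix (Fin 2) (Fin 2) F) * Y) := by
  have h1 : ((X * Y : SL2 F) : PSL2 F) = ((Y * X : SL2 F) : PSL2 F) := h
  rw [QuotientGroup.eq, Matrix.SpecialLinearGroup.mem_center_iff] at h1
  obtain ⟨r, hr, hA⟩ := h1
  refine ⟨r, by rw [← hr, Fintype.card_fin, sq], ?_⟩
  have h2 : Y * X = (X * Y) * ((X * Y)⁻¹ * (Y * X)) := by group
  have h3 := congrArg (fun Z : SL2 F => (Z : Matrix (Fin 2) (Fin 2) F)) h2
  simp only [Matrix.SpecialLinearGroup.coe_mul] at h3 hA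
  rw [h3, ← hA, Matrix.scalar_apply, ← Matrix.smul_one_eq_diagonal, Matrix.mul_smul, Matrix.mul_one]

theorem mk_eq {X Y : SL2 F} {r : F} (hr : r * r = 1) (h : (Y : Matrix (Fin 2) (Fin 2) F) = r • (X : Matrix (Fin 2) (Fin 2) F)) :
    (QuotientGroup.mk Y : PSL2 F) = QuotientGroup.mk X := by
  rw [QuotientGroup.eq, Matrix.SpecialLinearGroup.mem_center_iff]
  refine ⟨r, by rw [Fintype.card_fin, sq, hr], ?_⟩
  have h1 : (Y : Matrix (Fin 2) (Fin 2) F) * Matrix.scalar (Fin 2) r = X := by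
    rw [h]
    apply ext2 <;> simp [Matrix.mul_diagonal] <;> linear_combination (norm := skip) (0 : F) <;> skip
    all_goals (try (ring_nf; rw [sq, hr]; ring))
  have h2 : ((Y⁻¹ * X : SL2 F) : Matrix (Fin 2) (Fin 2) F) = ((Y⁻¹ : SL2 F) : Matrix (Fin 2) (Fin 2) F) * X := rfl
  have h3 : ((Y⁻¹ : SL2 F) : Matrix (Fin 2) (Fin 2) F) * Y = 1 := by
    rw [← Matrix.SpecialLinearGroup.coe_mul, inv_mul_cancel, Matrix.SpecialLinearGroup.coe_one]
  rw [h2, ← h1, ← mul_assoc, h3, one_mul]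

theorem ns_of_ne {X : SL2 F} (h : (QuotientGroup.mk X : PSL2 F) ≠ 1) : NS (X : Matrix (Fin 2) (Fin 2) F) := by
  rintro ⟨h1, h2, h3⟩
  apply h
  have hd := X.2
  rw [Matrix.det_fin_two, h1, h2, ← h3, mul_zero, sub_zero] at hd
  have : (QuotientGroup.mk X : PSL2 F) = QuotientGroup.mk 1 := by
    apply mk_eq hd
    apply ext2
    · simp
    · simp [h1]
    · simp [h2]
    · simp [h3]
  rw [this]; rfl

theorem trace_zero {X Y : SL2 F} {r : F} (hr : r * r = 1) (hr1 : r ≠ 1)
    (h : (Y : Matrix (Fin 2) (Fin 2) F) * X = r • ((X : Matrix (Fin 2) (Fin 2) F) * Y)) :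
    (X : Matrix (Fin 2) (Fin 2) F).trace = 0 := by
  have h1 : ((Y⁻¹ : SL2 F) : Matrix (Fin 2) (Fin 2) F) * Y = 1 := by
    rw [← Matrix.SpecialLinearGroup.coe_mul, inv_mul_cancel, Matrix.SpecialLinearGroup.coe_one]
  have h2 : (Y : Matrix (Fin 2) (Fin 2) F) * ((Y⁻¹ : SL2 F) : Matrix (Fin 2) (Fin 2) F) = 1 := by
    rw [← Matrix.SpecialLinearGroup.coe_mul, mul_inv_cancel, Matrix.SpecialLinearGroup.coe_one]
  have h3 : (X : Matrix (Fin 2) (Fin 2) F) = r • (((Y⁻¹ : SL2 F) : Matrix (Fin 2) (Fin 2) F) * (X : Matrix (Fin 2) (Fin 2) F) * Y) := by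
    calc (X : Matrix (Fin 2) (Fin 2) F) = ((Y⁻¹ : SL2 F) : Matrix (Fin 2) (Fin 2) F) * Y * X := by rw [h1, one_mul]
      _ = ((Y⁻¹ : SL2 F) : Matrix (Fin 2) (Fin 2) F) * (Y * X) := by rw [mul_assoc]
      _ = _ := by rw [h, Matrix.mul_smul, mul_assoc]
  have h4 := congrArg Matrix.trace h3
  rw [Matrix.trace_smul, Matrix.trace_mul_cycle, h2, one_mul, smul_eq_mul] at h4
  have h5 : (1 - r) * (X : Matrix (Fin 2) (Fin 2) F).trace = 0 := by linear_combination h4
  exact (mul_eq_zero.mp h5).resolve_left (sub_ne_zero.mpr (Ne.symm hr1))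


/-- centralizers of semisimple elements of `SL₂` are cyclic -/
theorem cyc_cent [Finite F] {X : SL2 F} (hX : NS (X : Matrix (Fin 2) (Fin 2) F)) (ht : (X : Matrix (Fin 2) (Fin 2) F).trace ^ 2 ≠ 4) :
    IsCyclic ↥(Subgroup.centralizer ({X} : Set (SL2 F))) := by
  set t := (X : Matrix (Fin 2) (Fin 2) F).trace with htdef
  let K := AlgebraicClosure F
  let ι : F →+* K := algebraMap F K
  have hι : Function.Injective ι := ι.injective
  obtain ⟨l, hl⟩ : ∃ l : K, l ^ 2 - ι t * l + 1 = 0 := by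
    have hdeg : (Polynomial.X ^ 2 - Polynomial.C (ι t) * Polynomial.X + 1 : Polynomial K).degree ≠ 0 := by
      have : (Polynomial.X ^ 2 - Polynomial.C (ι t) * Polynomial.X + 1 : Polynomial K) = Polynomial.C 1 * Polynomial.X ^ 2 + Polynomial.C (-ι t) * Polynomial.X + Polynomial.C 1 := by
        rw [Polynomial.C_1, Polynomial.C_neg]; ring
      rw [this, Polynomial.degree_quadratic one_ne_zero]
      decide
    obtain ⟨l, hl⟩ := IsAlgClosed.exists_root _ hdeg
    refine ⟨l, ?_⟩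
    rw [Polynomial.IsRoot] at hl
    simpa using hl
  set XK : Matrix (Fin 2) (Fin 2) K := (X : Matrix (Fin 2) (Fin 2) F).map ι with hXK
  have hdX : (X : Matrix (Fin 2) (Fin 2) F).det = 1 := X.2
  have htr : t = (X : Matrix (Fin 2) (Fin 2) F) 0 0 + (X : Matrix (Fin 2) (Fin 2) F) 1 1 := by rw [htdef, Matrix.trace_fin_two]
  have hdet : (XK - l • (1 : Matrix (Fin 2) (Fin 2) K)).det = 0 := by
    rw [Matrix.det_fin_two]
    have h1 : ι ((X : Matrix (Fin 2) (Fin 2) F) 0 0) * ι ((X : Matrix (Fin 2) (Fin 2) F) 1 1) - ι ((X : Matrix (Fin 2) (Fin 2) F) 0 1) * ι ((X : Matrix (Fin 2) (Fin 2) F) 1 0) = 1 := by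
      rw [← map_mul, ← map_mul, ← map_sub, ← Matrix.det_fin_two, hdX, map_one]
    have h2 : ι t = ι ((X : Matrix (Fin 2) (Fin 2) F) 0 0) + ι ((X : Matrix (Fin 2) (Fin 2) F) 1 1) := by rw [htr, map_add]
    simp [hXK]
    rw [h2] at hl
    linear_combination h1 + hl
  obtain ⟨w, hw0, hw⟩ := Matrix.exists_vecMul_eq_zero_iff.mpr hdet
  have hwX : w ᵥ* XK = l • w := by
    rw [Matrix.vecMul_sub, Matrix.vecMul_smul, Matrix.vecMul_one, sub_eq_zero] at hw
    exact hw
  obtain ⟨i, hi⟩ : ∃ i, w i ≠ 0 := by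
    by_contra hcon
    push Not at hcon
    exact hw0 (funext hcon)
  -- the eigenvalue
  have hform : ∀ Y : SL2 F, Y ∈ Subgroup.centralizer ({X} : Set (SL2 F)) → ∃ a b : F, (Y : Matrix (Fin 2) (Fin 2) F) = a • (1 : Matrix (Fin 2) (Fin 2) F) + b • (X : Matrix (Fin 2) (Fin 2) F) := by
    intro Y hY
    rw [Subgroup.mem_centralizer_singleton_iff] at hY
    apply lin hX
    have := congrArg (fun Z : SL2 F => (Z : Matrix (Fin 2) (Fin 2) F)) hY
    exact this.symm
  have hvec : ∀ (Y : SL2 F) (a b : F), (Y : Matrix (Fin 2) (Fin 2) F) = a • (1 : Matrix (Fin 2) (Fin 2) F) + b • (X : Matrix (Fin 2) (Fin 2) F) →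
      w ᵥ* ((Y : Matrix (Fin 2) (Fin 2) F).map ι) = (ι a + ι b * l) • w := by
    intro Y a b hY
    have h1 : (Y : Matrix (Fin 2) (Fin 2) F).map ι = ι a • (1 : Matrix (Fin 2) (Fin 2) K) + ι b • XK := by
      rw [hY]
      apply ext2 <;> simp [hXK]
    rw [h1, Matrix.vecMul_add, Matrix.vecMul_smul, Matrix.vecMul_smul, Matrix.vecMul_one, hwX, smul_smul, ← add_smul]
  set χ : SL2 F → K := fun Y => (w ᵥ* ((Y : Matrix (Fin 2) (Fin 2) F).map ι)) i / w i with hχ
  have hχv : ∀ (Y : SL2 F) (a b : F), (Y : Matrix (Fin 2) (Fin 2) F) = a • (1 : Matrix (Fin 2) (Fin 2) F) + b • (X : Matrix (Fin 2) (Fin 2) F) →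
      χ Y = ι a + ι b * l := by
    intro Y a b hY
    rw [hχ]
    simp only
    rw [hvec Y a b hY, Pi.smul_apply, smul_eq_mul, mul_div_assoc, div_self hi, mul_one]
  let f : ↥(Subgroup.centralizer ({X} : Set (SL2 F))) →* K :=
    { toFun := fun Y => χ Y
      map_one' := by
        have := hχv (1 : SL2 F) 1 0 (by simp)
        show χ (1 : SL2 F) = 1
        rw [this]; simp
      map_mul' := by
        rintro ⟨Y, hY⟩ ⟨Z, hZ⟩
        obtain ⟨a, b, hab⟩ := hform Y hY
        obtain ⟨c, d, hcd⟩ := hform Z hZ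
        show χ (Y * Z) = χ Y * χ Z
        rw [hχv Y a b hab, hχv Z c d hcd]
        have h1 : ((Y * Z : SL2 F) : Matrix (Fin 2) (Fin 2) F) = (a * c - b * d) • (1 : Matrix (Fin 2) (Fin 2) F) + (a * d + b * c + b * d * t) • (X : Matrix (Fin 2) (Fin 2) F) := by
          rw [Matrix.SpecialLinearGroup.coe_mul, hab, hcd]
          have h2 := ch (X : Matrix (Fin 2) (Fin 2) F) hdX
          have h3 : (a • (1 : Matrix (Fin 2) (Fin 2) F) + b • (X : Matrix (Fin 2) (Fin 2) F)) * (c • (1 : Matrix (Fin 2) (Fin 2) F) + d • (X : Matrix (Fin 2) (Fin 2) F))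
              = (a * c) • (1 : Matrix (Fin 2) (Fin 2) F) + (a * d + b * c) • (X : Matrix (Fin 2) (Fin 2) F) + (b * d) • ((X : Matrix (Fin 2) (Fin 2) F) * X) := by
            rw [add_mul, mul_add, mul_add]
            simp only [smul_mul_smul_comm, Matrix.one_mul, Matrix.mul_one]
            module
          rw [h3, h2, ← htdef]
          module
        rw [hχv _ _ _ h1]
        simp only [map_add, map_sub, map_mul]
        linear_combination (-(ι b * ι d)) * hl }
  have hf : Function.Injective f := by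
    rw [injective_iff_map_eq_one]
    rintro ⟨Y, hY⟩ hfY
    obtain ⟨a, b, hab⟩ := hform Y hY
    have h1 : ι a + ι b * l = 1 := by
      rw [← hχv Y a b hab]; exact hfY
    have hdY : a ^ 2 + a * b * t + b ^ 2 = 1 := by
      have h2 : (Y : Matrix (Fin 2) (Fin 2) F).det = 1 := Y.2
      rw [hab, det_lin, hdX, mul_one] at h2
      exact h2
    have hdY' : ι a ^ 2 + ι a * ι b * ι t + ι b ^ 2 = 1 := by
      rw [← map_pow, ← map_pow, ← map_mul, ← map_mul, ← map_add, ← map_add, hdY, map_one]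
    have h3 : (ι a + ι b * l) * (ι a + ι b * (ι t - l)) = 1 := by
      linear_combination hdY' + (-(ι b ^ 2)) * hl
    rw [h1, one_mul] at h3
    have h4 : ι b * (2 * l - ι t) = 0 := by linear_combination h1 - h3
    have h5 : (2 * l - ι t) ≠ 0 := by
      intro h6
      apply ht
      have h7 : ι (t ^ 2 - 4) = 0 := by
        rw [map_sub, map_pow, map_ofNat]
        linear_combination (2 * l - ι t) * h6 - 4 * hl
      rw [map_eq_zero] at h7
      exact sub_eq_zero.mp h7
    have h6 : ι b = 0 := (mul_eq_zero.mp h4).resolve_right h5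
    have h7 : b = 0 := by rwa [map_eq_zero] at h6
    have h8 : a = 1 := by
      rw [h6, zero_mul, add_zero] at h1
      exact hι (by rw [h1, map_one])
    apply Subtype.ext
    apply Subtype.ext
    show (Y : Matrix (Fin 2) (Fin 2) F) = 1
    rw [hab, h7, h8, one_smul, zero_smul, add_zero]
  exact isCyclic_of_subgroup_isDomain f hf

/-- (a) -/
theorem cyc_cent_psl [Finite F] {X : SL2 F} (hX : NS (X : Matrix (Fin 2) (Fin 2) F)) (ht : (X : Matrix (Fin 2) (Fin 2) F).trace ^ 2 ≠ 4)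
    (h0 : (X : Matrix (Fin 2) (Fin 2) F).trace ≠ 0 ∨ (2 : F) = 0) :
    IsCyclic ↥(Subgroup.centralizer ({(QuotientGroup.mk X : PSL2 F)} : Set (PSL2 F))) := by
  have hle : Subgroup.centralizer ({(QuotientGroup.mk X : PSL2 F)} : Set (PSL2 F)) ≤
      (Subgroup.centralizer ({X} : Set (SL2 F))).map (QuotientGroup.mk' (Subgroup.center (SL2 F))) := by
    intro y hy
    obtain ⟨Y, rfl⟩ := QuotientGroup.mk_surjective y
    rw [Subgroup.mem_centralizer_singleton_iff] at hy
    obtain ⟨r, hr, hr2⟩ := comm_lift hy.symm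
    have hr1 : r = 1 := by
      by_contra hne
      have h1 := trace_zero hr hne hr2
      rcases h0 with h0 | h0
      · exact h0 h1
      · apply hne
        have h2 : (r - 1) * (r - 1) = 0 := by linear_combination hr + (1 - r) * h0
        exact sub_eq_zero.mp (mul_self_eq_zero.mp h2)
    refine ⟨Y, ?_, rfl⟩
    rw [SetLike.mem_coe, Subgroup.mem_centralizer_singleton_iff]
    apply Subtype.ext
    show (Y : Matrix (Fin 2) (Fin 2) F) * X = (X : Matrix (Fin 2) (Fin 2) F) * Y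
    rw [hr2, hr1, one_smul]
  haveI := cyc_cent hX ht
  haveI : IsCyclic ↥((Subgroup.centralizer ({X} : Set (SL2 F))).map (QuotientGroup.mk' (Subgroup.center (SL2 F)))) :=
    isCyclic_of_surjective ((QuotientGroup.mk' (Subgroup.center (SL2 F))).subgroupMap (Subgroup.centralizer ({X} : Set (SL2 F))))
      ((QuotientGroup.mk' (Subgroup.center (SL2 F))).subgroupMap_surjective _)
  exact Subgroup.isCyclic_of_le hle

end psl

end CfsgLib.SC11
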