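import Mathlib
import Cfsg.Agent.EqBase
import Cfsg.Agent.LibSC11f
/-!
# PSL(2,q) and self-centralizing non-cyclic subgroups, part 2 (helper11)
-/
set_option autoImplicit false
set_option linter.all false
open Cfsg

namespace CfsgLib.SC11

open Matrix

variable {F : Type*} [Field F]

local notation "SL2" => Matrix.SpecialLinearGroup (Fin 2)
local notation "PSL2" => Matrix.ProjectiveSpecialLinearGroup (Fin 2)

/-- (b) -/
theorem unip_cent [Finite F] {p : ℕ} [hp : Fact p.Prime] [CharP F p] {X : SL2 F} (hX : NS (X : Matrix (Fin 2) (Fin 2) F))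
    (ht : (X : Matrix (Fin 2) (Fin 2) F).trace ^ 2 = 4) :
    Nat.card ↥(Subgroup.centralizer ({(QuotientGroup.mk X : PSL2 F)} : Set (PSL2 F))) ≤ Nat.card F ∧
    ∀ y ∈ Subgroup.centralizer ({(QuotientGroup.mk X : PSL2 F)} : Set (PSL2 F)), y ^ p = 1 := by
  set t := (X : Matrix (Fin 2) (Fin 2) F).trace with htdef
  have hdX : (X : Matrix (Fin 2) (Fin 2) F).det = 1 := X.2
  obtain ⟨s, hs1, hs2⟩ : ∃ s : F, s * s = 1 ∧ 2 * s = t := by
    by_cases h2 : (2 : F) = 0
    · refine ⟨1, one_mul 1, ?_⟩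
      have h3 : t ^ 2 = 0 := by rw [ht]; linear_combination 2 * h2
      rw [pow_eq_zero_iff (by norm_num)] at h3
      rw [h3, h2, zero_mul]
    · refine ⟨t / 2, ?_, ?_⟩
      · field_simp
        rw [ht]; norm_num
      · field_simp
  set N : Matrix (Fin 2) (Fin 2) F := (X : Matrix (Fin 2) (Fin 2) F) - s • (1 : Matrix (Fin 2) (Fin 2) F) with hN
  have hNt : N.trace = 0 := by
    rw [hN, Matrix.trace_sub, Matrix.trace_smul, Matrix.trace_one, ← htdef, ← hs2]
    simp
    ring
  have hNd : N.det = 0 := by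
    have h1 : N = (-s) • (1 : Matrix (Fin 2) (Fin 2) F) + (1 : F) • (X : Matrix (Fin 2) (Fin 2) F) := by rw [hN]; module
    rw [h1, det_lin, hdX, ← htdef, ← hs2]
    linear_combination (-1 : F) * hs1
  have hNN : N * N = 0 := by
    have h1 := ch (X : Matrix (Fin 2) (Fin 2) F) hdX
    have h2 : N * N = (X : Matrix (Fin 2) (Fin 2) F) * X - (2 * s) • (X : Matrix (Fin 2) (Fin 2) F) + (s * s) • (1 : Matrix (Fin 2) (Fin 2) F) := by
      rw [hN, sub_mul, mul_sub, mul_sub]
      simp only [smul_mul_assoc, mul_smul_comm, Matrix.one_mul, Matrix.mul_one]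
      module
    rw [h2, h1, hs2, hs1, ← htdef]
    module
  have hdet : ∀ c b : F, (c • (1 : Matrix (Fin 2) (Fin 2) F) + b • N).det = c * c := by
    intro c b
    rw [det_lin, hNt, hNd]; ring
  let g : F → SL2 F := fun β => ⟨(1 : F) • (1 : Matrix (Fin 2) (Fin 2) F) + β • N, by rw [hdet, one_mul]⟩
  have hg : ∀ β, ((g β : SL2 F) : Matrix (Fin 2) (Fin 2) F) = (1 : F) • (1 : Matrix (Fin 2) (Fin 2) F) + β • N := fun β => rfl
  have hgpow : ∀ (β : F) (n : ℕ), (g β) ^ n = g (n * β) := by
    intro β n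
    induction n with
    | zero =>
      apply Subtype.ext
      rw [pow_zero]
      show (1 : Matrix (Fin 2) (Fin 2) F) = _
      rw [hg]; simp
    | succ n ih =>
      apply Subtype.ext
      rw [pow_succ, ih]
      show ((g (n * β) : SL2 F) : Matrix (Fin 2) (Fin 2) F) * ((g β : SL2 F) : Matrix (Fin 2) (Fin 2) F) = _
      rw [hg, hg, hg]
      have : ((1 : F) • (1 : Matrix (Fin 2) (Fin 2) F) + (n * β) • N) * ((1 : F) • (1 : Matrix (Fin 2) (Fin 2) F) + β • N) =
          (1 : F) • (1 : Matrix (Fin 2) (Fin 2) F) + (n * β + β) • N + (n * β * β) • (N * N) := by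
        rw [add_mul, mul_add, mul_add]
        simp only [smul_mul_smul_comm, Matrix.one_mul, Matrix.mul_one]
        module
      rw [this, hNN, smul_zero, add_zero]
      push_cast
      congr 2
      ring
  have hrange : ∀ y ∈ Subgroup.centralizer ({(QuotientGroup.mk X : PSL2 F)} : Set (PSL2 F)), ∃ β : F, (QuotientGroup.mk (g β) : PSL2 F) = y := by
    intro y hy
    obtain ⟨Y, rfl⟩ := QuotientGroup.mk_surjective y
    rw [Subgroup.mem_centralizer_singleton_iff] at hy
    obtain ⟨r, hr, hr2⟩ := comm_lift hy.symm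
    have hr1 : r = 1 := by
      by_contra hne
      have h1 := trace_zero hr hne hr2
      rw [← htdef] at h1
      rw [h1] at ht
      have h3 : (4 : F) = 0 := by rw [← ht]; ring
      have h4 : (2 : F) = 0 := by
        have : (2 : F) * 2 = 0 := by rw [← h3]; norm_num
        exact mul_self_eq_zero.mp this
      apply hne
      have h2 : (r - 1) * (r - 1) = 0 := by linear_combination hr + (1 - r) * h4
      exact sub_eq_zero.mp (mul_self_eq_zero.mp h2)
    rw [hr1, one_smul] at hr2
    obtain ⟨a, b, hab⟩ := lin hX hr2.symm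
    have hab' : (Y : Matrix (Fin 2) (Fin 2) F) = (a + b * s) • (1 : Matrix (Fin 2) (Fin 2) F) + b • N := by
      rw [hab, hN]; module
    set c := a + b * s with hc
    have hcc : c * c = 1 := by
      have h1 : (Y : Matrix (Fin 2) (Fin 2) F).det = 1 := Y.2
      rw [hab', hdet] at h1
      exact h1
    refine ⟨b * c, ?_⟩
    apply mk_eq hcc
    rw [hg, hab']
    rw [smul_add, smul_smul, smul_smul, hcc, mul_comm b c]
  constructor
  · have h1 : ((Subgroup.centralizer ({(QuotientGroup.mk X : PSL2 F)} : Set (PSL2 F)) : Subgroup (PSL2 F)) : Set (PSL2 F)) ⊆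
        Set.range (fun β : F => (QuotientGroup.mk (g β) : PSL2 F)) := by
      intro y hy
      exact hrange y hy
    have h2 := Set.ncard_le_ncard h1 (Set.toFinite _)
    have h3 : (Set.range (fun β : F => (QuotientGroup.mk (g β) : PSL2 F))).ncard ≤ Nat.card F := by
      rw [← Nat.card_coe_set_eq]
      exact Finite.card_range_le _
    exact h2.trans h3
  · intro y hy
    obtain ⟨β, rfl⟩ := hrange y hy
    rw [← QuotientGroup.mk_pow, hgpow, CharP.cast_eq_zero, zero_mul]
    have : g 0 = 1 := by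
      apply Subtype.ext
      show _ = (1 : Matrix (Fin 2) (Fin 2) F)
      rw [hg]; simp
    rw [this]; rfl

theorem unip_case [Fintype F] {p : ℕ} [hp : Fact p.Prime] [CharP F p] (hq : Fintype.card F ≤ p ^ 2) {X : SL2 F}
    (hX : NS (X : Matrix (Fin 2) (Fin 2) F)) (ht : (X : Matrix (Fin 2) (Fin 2) F).trace ^ 2 = 4)
    (H : Subgroup (PSL2 F)) (hH : ¬ IsCyclic ↥H) (hle : H ≤ Subgroup.centralizer ({(QuotientGroup.mk X : PSL2 F)} : Set (PSL2 F))) :
    (QuotientGroup.mk X : PSL2 F) ∈ H := by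
  haveI : Finite (PSL2 F) := Quotient.finite _
  obtain ⟨h1, h2⟩ := unip_cent (p := p) hX ht
  have hp1 : IsPGroup p ↥H := by
    rintro ⟨h, hh⟩
    exact ⟨1, Subtype.ext (by rw [pow_one]; exact h2 h (hle hh))⟩
  obtain ⟨j, hj⟩ := hp1.exists_card_eq
  have hj2 : 2 ≤ j := by
    rcases j with _ | _ | j
    · exfalso
      apply hH
      rw [pow_zero] at hj
      have := (Nat.card_eq_one_iff_unique.mp hj).1
      infer_instance
    · exfalso
      apply hH
      rw [zero_add, pow_one] at hj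
      exact isCyclic_of_prime_card hj
    · omega
  have h3 : p ^ 2 ≤ Nat.card ↥H := by rw [hj]; exact Nat.pow_le_pow_right hp.out.pos hj2
  have h1' : Nat.card F = Fintype.card F := Nat.card_eq_fintype_card
  rw [h1'] at h1
  have h4 : H = Subgroup.centralizer ({(QuotientGroup.mk X : PSL2 F)} : Set (PSL2 F)) :=
    Subgroup.eq_of_le_of_card_ge hle (h1.trans (hq.trans h3))
  rw [h4, Subgroup.mem_centralizer_singleton_iff]

theorem sq_comm {A B : Matrix (Fin 2) (Fin 2) F} {r : F} (hr : r * r = 1) (h : B * A = r • (A * B)) : A * (B * B) = B * B * A := by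
  symm
  calc B * B * A = B * (B * A) := by rw [mul_assoc]
    _ = r • (B * A * B) := by
      conv_lhs => rw [h]
      rw [Matrix.mul_smul, mul_assoc B A B]
    _ = (r * r) • (A * B * B) := by rw [h, Matrix.smul_mul, smul_smul]
    _ = A * (B * B) := by rw [hr, one_smul, mul_assoc]

theorem inv_cent_two [Fintype F] {p : ℕ} [hp : Fact p.Prime] [CharP F p] (hp2 : p ≠ 2) {k : ℕ}
    (hk : Fintype.card F = 2 ^ k + 1 ∨ Fintype.card F + 1 = 2 ^ k) {X : SL2 F}
    (hX : NS (X : Matrix (Fin 2) (Fin 2) F)) (ht : (X : Matrix (Fin 2) (Fin 2) F).trace = 0) :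
    IsPGroup 2 ↥(Subgroup.centralizer ({(QuotientGroup.mk X : PSL2 F)} : Set (PSL2 F))) := by
  have hdX : (X : Matrix (Fin 2) (Fin 2) F).det = 1 := X.2
  have hXX : (X : Matrix (Fin 2) (Fin 2) F) * X = -1 := by rw [ch _ hdX, ht, zero_smul, zero_sub]
  obtain ⟨f, hfp, hf⟩ := FiniteField.card F p
  set q := Fintype.card F with hq
  have hqo : Odd q := by rw [hf]; exact (hp.out.odd_of_ne_two hp2).pow
  obtain ⟨m, hm⟩ := hqo
  -- X^q
  have hXq : (X : Matrix (Fin 2) (Fin 2) F) ^ q = (-1) ^ m * (X : Matrix (Fin 2) (Fin 2) F) := by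
    rw [hm, pow_succ, pow_mul, sq, hXX]
  rintro ⟨y, hy⟩
  obtain ⟨Y, rfl⟩ := QuotientGroup.mk_surjective y
  rw [Subgroup.mem_centralizer_singleton_iff] at hy
  obtain ⟨r, hr, hr2⟩ := comm_lift hy.symm
  set Z : SL2 F := Y * Y with hZ
  have hZX : (X : Matrix (Fin 2) (Fin 2) F) * Z = (Z : Matrix (Fin 2) (Fin 2) F) * X := by
    rw [hZ, Matrix.SpecialLinearGroup.coe_mul]
    exact sq_comm hr hr2
  obtain ⟨a, b, hab⟩ := lin hX hZX
  have hdZ : a ^ 2 + b ^ 2 = 1 := by
    have h1 : (Z : Matrix (Fin 2) (Fin 2) F).det = 1 := Z.2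
    rw [hab, det_lin, hdX, ht] at h1
    linear_combination h1
  have hZq : (Z : Matrix (Fin 2) (Fin 2) F) ^ q = a • (1 : Matrix (Fin 2) (Fin 2) F) + b • ((-1) ^ m * (X : Matrix (Fin 2) (Fin 2) F)) := by
    have hc : Commute (a • (1 : Matrix (Fin 2) (Fin 2) F)) (b • (X : Matrix (Fin 2) (Fin 2) F)) := by
      show _ * _ = _ * _
      rw [smul_mul_smul_comm, smul_mul_smul_comm, one_mul, mul_one, mul_comm a b]
    rw [hab]
    have h1 : (a • (1 : Matrix (Fin 2) (Fin 2) F) + b • (X : Matrix (Fin 2) (Fin 2) F)) ^ q =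
        (a • (1 : Matrix (Fin 2) (Fin 2) F)) ^ q + (b • (X : Matrix (Fin 2) (Fin 2) F)) ^ q := by
      rw [hf]
      exact add_pow_char_pow_of_commute p _ hc
    rw [h1, smul_pow, smul_pow, one_pow, hXq, FiniteField.pow_card, FiniteField.pow_card]
  -- the two cases
  have hcase : ∃ j, Z ^ (2 ^ j) = 1 := by
    have hplus : Even m → Z ^ (q - 1) = 1 := by
      intro he
      rw [he.neg_one_pow, one_mul, ← hab] at hZq
      have h1 : Z ^ q = Z := Subtype.ext (by rw [Matrix.SpecialLinearGroup.coe_pow, hZq])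
      have h2 : Z ^ (q - 1) * Z = Z := by
        rw [← pow_succ, show q - 1 + 1 = q by omega, h1]
      exact mul_eq_right.mp h2
    have hminus : Odd m → Z ^ (q + 1) = 1 := by
      intro ho
      rw [ho.neg_one_pow] at hZq
      apply Subtype.ext
      rw [Matrix.SpecialLinearGroup.coe_pow, pow_succ, hZq, hab]
      have h2 : (a • (1 : Matrix (Fin 2) (Fin 2) F) + b • (-1 * (X : Matrix (Fin 2) (Fin 2) F))) * (a • (1 : Matrix (Fin 2) (Fin 2) F) + b • (X : Matrix (Fin 2) (Fin 2) F)) =
          (a ^ 2) • (1 : Matrix (Fin 2) (Fin 2) F) - (b ^ 2) • ((X : Matrix (Fin 2) (Fin 2) F) * X) := by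
        rw [add_mul, mul_add, mul_add]
        simp only [smul_mul_smul_comm, Matrix.one_mul, Matrix.mul_one, neg_mul, one_mul, smul_neg]
        module
      rw [h2, hXX]
      show _ = (1 : Matrix (Fin 2) (Fin 2) F)
      have h3 : (1 : Matrix (Fin 2) (Fin 2) F) = (a ^ 2 + b ^ 2) • (1 : Matrix (Fin 2) (Fin 2) F) := by rw [hdZ, one_smul]
      conv_rhs => rw [h3]
      module
    have hq1 : 1 < q := Fintype.one_lt_card
    rcases hk with hk | hk
    · rcases k with _ | _ | k
      · exfalso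
        rw [pow_zero] at hk
        omega
      · rw [zero_add, pow_one] at hk
        have h1 : m = 1 := by omega
        refine ⟨2, ?_⟩
        have := hminus (by rw [h1]; exact odd_one)
        rwa [hk] at this
      · have h1 : Even m := by
          have : m = 2 * 2 ^ k := by
            have e : 2 ^ (k + 1 + 1) = 4 * 2 ^ k := by ring
            omega
          rw [this]; exact even_two_mul _
        refine ⟨k + 1 + 1, ?_⟩
        have h2 := hplus h1
        rwa [hk, Nat.add_sub_cancel] at h2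
    · rcases k with _ | _ | k
      · rw [pow_zero] at hk; omega
      · rw [zero_add, pow_one] at hk; omega
      · have h1 : Odd m := by
          have : m + 1 = 2 * 2 ^ k := by
            have e : 2 ^ (k + 1 + 1) = 4 * 2 ^ k := by ring
            omega
          have h3 : 0 < 2 ^ k := by positivity
          exact ⟨2 ^ k - 1, by omega⟩
        refine ⟨k + 1 + 1, ?_⟩
        have h2 := hminus h1
        rwa [hk] at h2
  obtain ⟨j, hj⟩ := hcase
  refine ⟨j + 1, Subtype.ext ?_⟩
  show (QuotientGroup.mk Y : PSL2 F) ^ (2 ^ (j + 1)) = 1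
  rw [← QuotientGroup.mk_pow, pow_succ', pow_mul, sq, ← hZ, hj]
  rfl


theorem inv_trace {A : SL2 F} (hA : NS (A : Matrix (Fin 2) (Fin 2) F))
    (h : (QuotientGroup.mk A : PSL2 F) * QuotientGroup.mk A = 1) : (A : Matrix (Fin 2) (Fin 2) F).trace = 0 := by
  have h1 : ((A * A : SL2 F) : PSL2 F) = 1 := h
  rw [QuotientGroup.eq_one_iff, Matrix.SpecialLinearGroup.mem_center_iff] at h1
  obtain ⟨r, -, hr⟩ := h1
  rw [Matrix.SpecialLinearGroup.coe_mul, ch _ A.2] at hr
  by_contra ht
  set t := (A : Matrix (Fin 2) (Fin 2) F).trace with htdef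
  apply hA
  have e01 := congrFun (congrFun hr 0) 1
  have e10 := congrFun (congrFun hr 1) 0
  have e00 := congrFun (congrFun hr 0) 0
  have e11 := congrFun (congrFun hr 1) 1
  simp [Matrix.scalar_apply] at e01 e10 e00 e11
  refine ⟨?_, ?_, ?_⟩
  · rcases e01 with h | h
    · exact absurd h ht
    · exact h
  · rcases e10 with h | h
    · exact absurd h ht
    · exact h
  · have : t * (A : Matrix (Fin 2) (Fin 2) F) 0 0 = t * (A : Matrix (Fin 2) (Fin 2) F) 1 1 := by linear_combination e11 - e00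
    exact mul_left_cancel₀ ht this

theorem comm_same (h2 : (2 : F) ≠ 0) {A B : SL2 F} (hA : NS (A : Matrix (Fin 2) (Fin 2) F))
    (htA : (A : Matrix (Fin 2) (Fin 2) F).trace = 0) (htB : (B : Matrix (Fin 2) (Fin 2) F).trace = 0)
    (h : (A : Matrix (Fin 2) (Fin 2) F) * B = (B : Matrix (Fin 2) (Fin 2) F) * A) : (QuotientGroup.mk B : PSL2 F) = QuotientGroup.mk A := by
  obtain ⟨a, b, hab⟩ := lin hA h
  have h1 : 2 * a = 0 := by
    rw [hab, Matrix.trace_add, Matrix.trace_smul, Matrix.trace_smul, htA, Matrix.trace_one] at htB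
    simp at htB
    rcases htB with h3 | h3
    · rw [h3, mul_zero]
    · exact absurd h3 h2
  have ha : a = 0 := (mul_eq_zero.mp h1).resolve_left h2
  rw [ha, zero_smul, zero_add] at hab
  have hb : b * b = 1 := by
    have h3 : (B : Matrix (Fin 2) (Fin 2) F).det = 1 := B.2
    have h4 : (A : Matrix (Fin 2) (Fin 2) F).det = 1 := A.2
    rw [hab, Matrix.det_smul, h4, Fintype.card_fin, mul_one, sq] at h3
    exact h3
  exact mk_eq hb hab

theorem anti_comm (h2 : (2 : F) ≠ 0) {A B : SL2 F} (hA : NS (A : Matrix (Fin 2) (Fin 2) F))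
    (htA : (A : Matrix (Fin 2) (Fin 2) F).trace = 0) (htB : (B : Matrix (Fin 2) (Fin 2) F).trace = 0)
    (hne : (QuotientGroup.mk B : PSL2 F) ≠ QuotientGroup.mk A)
    (h : (QuotientGroup.mk A : PSL2 F) * QuotientGroup.mk B = QuotientGroup.mk B * QuotientGroup.mk A) :
    (B : Matrix (Fin 2) (Fin 2) F) * A = -((A : Matrix (Fin 2) (Fin 2) F) * B) := by
  obtain ⟨r, hr, hr2⟩ := comm_lift h
  have hr1 : r ≠ 1 := by
    rintro rfl
    apply hne
    rw [one_smul] at hr2
    exact comm_same h2 hA htA htB hr2.symm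
  have h3 : (r - 1) * (r + 1) = 0 := by linear_combination hr
  have h4 : r = -1 := by
    have := (mul_eq_zero.mp h3).resolve_left (sub_ne_zero.mpr hr1)
    linear_combination this
  rw [hr2, h4, neg_smul, one_smul]

theorem three (h2 : (2 : F) ≠ 0) {A B Y : SL2 F} (hA : NS (A : Matrix (Fin 2) (Fin 2) F)) (hB : NS (B : Matrix (Fin 2) (Fin 2) F))
    (hY : NS (Y : Matrix (Fin 2) (Fin 2) F))
    (hA2 : (QuotientGroup.mk A : PSL2 F) * QuotientGroup.mk A = 1) (hB2 : (QuotientGroup.mk B : PSL2 F) * QuotientGroup.mk B = 1)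
    (hY2 : (QuotientGroup.mk Y : PSL2 F) * QuotientGroup.mk Y = 1)
    (hAB : (QuotientGroup.mk A : PSL2 F) * QuotientGroup.mk B = QuotientGroup.mk B * QuotientGroup.mk A)
    (hAY : (QuotientGroup.mk A : PSL2 F) * QuotientGroup.mk Y = QuotientGroup.mk Y * QuotientGroup.mk A)
    (hBY : (QuotientGroup.mk B : PSL2 F) * QuotientGroup.mk Y = QuotientGroup.mk Y * QuotientGroup.mk B)
    (n1 : (QuotientGroup.mk B : PSL2 F) ≠ QuotientGroup.mk A) (n2 : (QuotientGroup.mk Y : PSL2 F) ≠ QuotientGroup.mk A)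
    (n3 : (QuotientGroup.mk Y : PSL2 F) ≠ QuotientGroup.mk B) :
    (QuotientGroup.mk Y : PSL2 F) = QuotientGroup.mk A * QuotientGroup.mk B := by
  have tA := inv_trace hA hA2
  have tB := inv_trace hB hB2
  have tY := inv_trace hY hY2
  have e1 := anti_comm h2 hA tA tB n1 hAB
  have e2 := anti_comm h2 hA tA tY n2 hAY
  have e3 := anti_comm h2 hB tB tY n3 hBY
  have hC : NS ((A * B : SL2 F) : Matrix (Fin 2) (Fin 2) F) := by
    apply ns_of_ne
    intro h
    apply n1
    have h3 : (QuotientGroup.mk A : PSL2 F) * QuotientGroup.mk B = 1 := h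
    have h4 : (QuotientGroup.mk A : PSL2 F) * QuotientGroup.mk B = QuotientGroup.mk A * QuotientGroup.mk A := by rw [h3, hA2]
    exact mul_left_cancel h4
  have tC : ((A * B : SL2 F) : Matrix (Fin 2) (Fin 2) F).trace = 0 := by
    rw [Matrix.SpecialLinearGroup.coe_mul]
    have h3 := congrArg Matrix.trace e1
    rw [Matrix.trace_neg, Matrix.trace_mul_comm] at h3
    have h4 : 2 * ((A : Matrix (Fin 2) (Fin 2) F) * B).trace = 0 := by linear_combination h3
    exact (mul_eq_zero.mp h4).resolve_left h2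
  have hcomm : ((A * B : SL2 F) : Matrix (Fin 2) (Fin 2) F) * Y = (Y : Matrix (Fin 2) (Fin 2) F) * ((A * B : SL2 F) : Matrix (Fin 2) (Fin 2) F) := by
    rw [Matrix.SpecialLinearGroup.coe_mul]
    generalize (A : Matrix (Fin 2) (Fin 2) F) = a at *
    generalize (B : Matrix (Fin 2) (Fin 2) F) = b at *
    generalize (Y : Matrix (Fin 2) (Fin 2) F) = y at *
    symm
    calc y * (a * b) = (y * a) * b := by rw [mul_assoc]
      _ = -(a * y) * b := by rw [e2]
      _ = -(a * (y * b)) := by rw [neg_mul, mul_assoc]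
      _ = -(a * -(b * y)) := by rw [e3]
      _ = a * b * y := by rw [mul_neg, neg_neg, mul_assoc]
  have h5 := comm_same h2 hC tC tY hcomm
  rw [h5]; rfl

/-- in a cyclic group the element of order two is unique -/
theorem cyc_inv_unique {D : Type*} [Group D] [Finite D] [IsCyclic D] {u v : D} (hu : u ≠ 1) (hv : v ≠ 1) (hu2 : u * u = 1) (hv2 : v * v = 1) : u = v := by
  classical
  haveI := Fintype.ofFinite D
  have h1 := IsCyclic.card_pow_eq_one_le (α := D) (n := 2) (by norm_num)
  by_contra hne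
  have h2 : ({1, u, v} : Finset D) ⊆ Finset.univ.filter (fun a : D => a ^ 2 = 1) := by
    intro w hw
    simp only [Finset.mem_insert, Finset.mem_singleton] at hw
    simp only [Finset.mem_filter, Finset.mem_univ, true_and, sq]
    rcases hw with rfl | rfl | rfl
    · simp
    · exact hu2
    · exact hv2
  have h3 := Finset.card_le_card h2
  have h4 : ({1, u, v} : Finset D).card = 3 := by
    rw [Finset.card_insert_of_notMem, Finset.card_insert_of_notMem, Finset.card_singleton]
    · simpa using hne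
    · simp only [Finset.mem_insert, Finset.mem_singleton, not_or]
      exact ⟨fun h => hu h.symm, fun h => hv h.symm⟩
  omega

theorem snc_psl [Fintype F] {p : ℕ} [hp : Fact p.Prime] [CharP F p] (hq : Fintype.card F ≤ p ^ 2)
    (h2 : p ≠ 2 → ∃ k, Fintype.card F = 2 ^ k + 1 ∨ Fintype.card F + 1 = 2 ^ k) : SNC (PSL2 F) := by
  haveI : Finite (PSL2 F) := Quotient.finite _
  intro H hH y hy
  by_cases hy1 : y = 1
  · rw [hy1]; exact H.one_mem
  obtain ⟨Y, rfl⟩ := QuotientGroup.mk_surjective y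
  have hY := ns_of_ne hy1
  have hHC : H ≤ Subgroup.centralizer ({(QuotientGroup.mk Y : PSL2 F)} : Set (PSL2 F)) := by
    intro h hh
    rw [Subgroup.mem_centralizer_singleton_iff]
    exact (Subgroup.mem_centralizer_iff.mp hy) h hh
  have hHc : ∀ h ∈ H, h * (QuotientGroup.mk Y : PSL2 F) = QuotientGroup.mk Y * h := fun h hh => (Subgroup.mem_centralizer_iff.mp hy) h hh
  by_cases ht : (Y : Matrix (Fin 2) (Fin 2) F).trace ^ 2 = 4
  · exact unip_case (p := p) hq hY ht H hH hHC
  by_cases h0 : (Y : Matrix (Fin 2) (Fin 2) F).trace ≠ 0 ∨ (2 : F) = 0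
  · exfalso
    haveI := cyc_cent_psl hY ht h0
    exact hH (Subgroup.isCyclic_of_le hHC)
  push Not at h0
  obtain ⟨h0, h20⟩ := h0
  have hp2 : p ≠ 2 := by
    rintro rfl
    apply h20
    have := CharP.cast_eq_zero F 2
    exact_mod_cast this
  obtain ⟨k, hk⟩ := h2 hp2
  have hC2 := inv_cent_two hp2 hk hY h0
  have hY2 : (QuotientGroup.mk Y : PSL2 F) * QuotientGroup.mk Y = 1 := by
    have : (QuotientGroup.mk (Y * Y) : PSL2 F) = QuotientGroup.mk 1 := by
      apply mk_eq (r := -1) (by ring)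
      rw [Matrix.SpecialLinearGroup.coe_mul, ch _ Y.2, h0, zero_smul, zero_sub]
      simp
    exact this
  by_cases hex : ∃ h ∈ H, h * h ≠ 1
  · obtain ⟨h, hh, hhh⟩ := hex
    obtain ⟨A, rfl⟩ := QuotientGroup.mk_surjective h
    have hA1 : (QuotientGroup.mk A : PSL2 F) ≠ 1 := by
      intro h3; apply hhh; rw [h3, mul_one]
    have hA := ns_of_ne hA1
    obtain ⟨j, hj⟩ := hC2 ⟨_, hHC hh⟩
    have hj' : (QuotientGroup.mk A : PSL2 F) ^ (2 ^ j) = 1 := congrArg Subtype.val hj
    have htA : (A : Matrix (Fin 2) (Fin 2) F).trace ^ 2 ≠ 4 := by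
      intro h3
      have h4 := (unip_cent (p := p) hA h3).2 (QuotientGroup.mk A) (by rw [Subgroup.mem_centralizer_singleton_iff])
      have h5 := orderOf_dvd_of_pow_eq_one h4
      have h6 := orderOf_dvd_of_pow_eq_one hj'
      have h7 : Nat.Coprime p (2 ^ j) := Nat.Coprime.pow_right _ (Nat.coprime_two_right.mpr (hp.out.odd_of_ne_two hp2))
      exact hA1 (orderOf_eq_one_iff.mp (Nat.eq_one_of_dvd_coprimes h7 h5 h6))
    have htA0 : (A : Matrix (Fin 2) (Fin 2) F).trace ≠ 0 := by
      intro h3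
      apply hhh
      have : (QuotientGroup.mk (A * A) : PSL2 F) = QuotientGroup.mk 1 := by
        apply mk_eq (r := -1) (by ring)
        rw [Matrix.SpecialLinearGroup.coe_mul, ch _ A.2, h3, zero_smul, zero_sub]
        simp
      exact this
    haveI := cyc_cent_psl hA htA (Or.inl htA0)
    -- power of order two
    have ho : orderOf (QuotientGroup.mk A : PSL2 F) ∣ 2 ^ j := orderOf_dvd_of_pow_eq_one hj'
    obtain ⟨i, -, hi⟩ := (Nat.dvd_prime_pow Nat.prime_two).mp ho
    have hi0 : i ≠ 0 := by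
      rintro rfl
      rw [pow_zero] at hi
      exact hA1 (orderOf_eq_one_iff.mp hi)
    set v : PSL2 F := (QuotientGroup.mk A : PSL2 F) ^ (2 ^ (i - 1)) with hv
    have hvH : v ∈ H := H.pow_mem hh _
    have hv2 : v * v = 1 := by
      rw [hv, ← pow_add, ← two_mul, ← pow_succ', Nat.sub_add_cancel (Nat.pos_of_ne_zero hi0), ← hi, pow_orderOf_eq_one]
    have hv1 : v ≠ 1 := by
      intro h3
      have h4 := orderOf_dvd_of_pow_eq_one (hv ▸ h3 : (QuotientGroup.mk A : PSL2 F) ^ (2 ^ (i - 1)) = 1)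
      rw [hi] at h4
      have h5 := (Nat.pow_dvd_pow_iff_le_right (by norm_num)).mp h4
      omega
    have hvC : v ∈ Subgroup.centralizer ({(QuotientGroup.mk A : PSL2 F)} : Set (PSL2 F)) := by
      rw [Subgroup.mem_centralizer_singleton_iff, hv, ← pow_succ, ← pow_succ']
    have hyC : (QuotientGroup.mk Y : PSL2 F) ∈ Subgroup.centralizer ({(QuotientGroup.mk A : PSL2 F)} : Set (PSL2 F)) := by
      rw [Subgroup.mem_centralizer_singleton_iff]
      exact (hHc _ hh).symm
    have h6 := cyc_inv_unique (D := ↥(Subgroup.centralizer ({(QuotientGroup.mk A : PSL2 F)} : Set (PSL2 F))))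
      (u := ⟨_, hyC⟩) (v := ⟨v, hvC⟩) (fun h => hy1 (congrArg Subtype.val h)) (fun h => hv1 (congrArg Subtype.val h))
      (Subtype.ext hY2) (Subtype.ext hv2)
    have h7 : (QuotientGroup.mk Y : PSL2 F) = v := congrArg Subtype.val h6
    rw [h7]; exact hvH
  · push Not at hex
    -- two different involutions
    have hcomm : ∀ a ∈ H, ∀ b ∈ H, a * b = b * a := by
      intro a ha b hb
      have h3 := hex _ (H.mul_mem ha hb)
      have h4 := hex a ha
      have h5 := hex b hb
      calc a * b = (a * b)⁻¹ := (inv_eq_of_mul_eq_one_right h3).symm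
        _ = b⁻¹ * a⁻¹ := mul_inv_rev a b
        _ = b * a := by rw [inv_eq_of_mul_eq_one_right h4, inv_eq_of_mul_eq_one_right h5]
    obtain ⟨a, ha, ha1⟩ : ∃ a ∈ H, a ≠ 1 := by
      by_contra hcon
      push Not at hcon
      apply hH
      have : H = ⊥ := (Subgroup.eq_bot_iff_forall H).mpr hcon
      rw [this]
      infer_instance
    obtain ⟨b, hb, hb1, hba⟩ : ∃ b ∈ H, b ≠ 1 ∧ b ≠ a := by
      by_contra hcon
      push Not at hcon
      apply hH
      have : H = Subgroup.zpowers a := by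
        apply le_antisymm
        · intro c hc
          by_cases hc1 : c = 1
          · rw [hc1]; exact Subgroup.one_mem _
          · rw [hcon c hc hc1]; exact Subgroup.mem_zpowers a
        · rw [Subgroup.zpowers_le]; exact ha
      rw [this]
      infer_instance
    by_cases hya : (QuotientGroup.mk Y : PSL2 F) = a
    · rw [hya]; exact ha
    by_cases hyb : (QuotientGroup.mk Y : PSL2 F) = b
    · rw [hyb]; exact hb
    obtain ⟨A, rfl⟩ := QuotientGroup.mk_surjective a
    obtain ⟨B, rfl⟩ := QuotientGroup.mk_surjective b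
    rw [three h20 (ns_of_ne ha1) (ns_of_ne hb1) hY (hex _ ha) (hex _ hb) hY2 (hcomm _ ha _ hb) (hHc _ ha) (hHc _ hb) hba hya hyb]
    exact H.mul_mem ha hb

end CfsgLib.SC11
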