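import Mathlib
import Cfsg.Agent.EqBase
import Cfsg.Agent.LibSC11a
import Cfsg.Agent.LibMaxClass3
/-!
# Self-centralizing non-cyclic subgroups in 2-groups of maximal class (helper11)
-/
set_option autoImplicit false
set_option linter.all false
open Cfsg

namespace CfsgLib.SC11

universe u

/-- generic criterion -/
theorem snc_of_cyc {G : Type*} [Group G] [Finite G] (a : G) (hidx : (Subgroup.zpowers a).index = 2) {m : ℕ} (ha : orderOf a = 2 ^ m)
    (hK : ∀ y, y ∉ Subgroup.zpowers a → ∀ c ∈ Subgroup.zpowers a, c * y = y * c → c * c = 1) : SNC G := by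
  -- nontrivial subgroups of the cyclic group contain every element of order two
  have hinv : ∀ u ∈ Subgroup.zpowers a, u ≠ 1 → ∀ c ∈ Subgroup.zpowers a, c * c = 1 → c ∈ Subgroup.zpowers u := by
    intro u hu hu1 c hc hcc
    by_cases hc1 : c = 1
    · rw [hc1]; exact Subgroup.one_mem _
    have h1 : orderOf u ∣ 2 ^ m := by rw [← ha]; exact orderOf_dvd_of_mem_zpowers hu
    obtain ⟨j, -, hj⟩ := (Nat.dvd_prime_pow Nat.prime_two).mp h1
    have hj0 : j ≠ 0 := by
      rintro rfl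
      rw [pow_zero] at hj
      exact hu1 (orderOf_eq_one_iff.mp hj)
    set v := u ^ (2 ^ (j - 1)) with hv
    have hv2 : v * v = 1 := by
      rw [hv, ← pow_add, ← two_mul, ← pow_succ', Nat.sub_add_cancel (Nat.pos_of_ne_zero hj0), ← hj, pow_orderOf_eq_one]
    have hv1 : v ≠ 1 := by
      intro h3
      have h4 := orderOf_dvd_of_pow_eq_one (hv ▸ h3 : u ^ (2 ^ (j - 1)) = 1)
      rw [hj] at h4
      have h5 := (Nat.pow_dvd_pow_iff_le_right (by norm_num)).mp h4
      omega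
    have hvA : v ∈ Subgroup.zpowers a := Subgroup.pow_mem _ hu _
    -- uniqueness
    obtain ⟨i, hi⟩ := Subgroup.mem_zpowers_iff.mp hc
    obtain ⟨k, hk⟩ := Subgroup.mem_zpowers_iff.mp hvA
    have hm0 : m ≠ 0 := by
      rintro rfl
      rw [pow_zero] at ha
      have : a = 1 := orderOf_eq_one_iff.mp ha
      apply hc1
      rw [← hi, this, one_zpow]
    have key : ∀ (w : G) (n : ℤ), a ^ n = w → w ≠ 1 → w * w = 1 → w = a ^ ((2 : ℤ) ^ (m - 1)) := by
      intro w n hn hw1 hw2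
      have h1 : a ^ (2 * n) = 1 := by rw [two_mul, zpow_add, hn, hw2]
      have h2 : ((2 ^ m : ℕ) : ℤ) ∣ 2 * n := by rw [← ha]; exact orderOf_dvd_iff_zpow_eq_one.mpr h1
      have h3 : (2 : ℤ) ^ m = 2 * 2 ^ (m - 1) := by rw [← pow_succ']; congr 1; omega
      obtain ⟨t, ht⟩ := h2
      push_cast at ht
      rw [h3] at ht
      have h4 : n = 2 ^ (m - 1) * t := by
        have : (2 : ℤ) * n = 2 * (2 ^ (m - 1) * t) := by rw [ht]; ring
        exact mul_left_cancel₀ (by norm_num) this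
      have h5 : a ^ ((2 : ℤ) ^ m) = 1 := by
        have : ((2 : ℤ) ^ m) = ((2 ^ m : ℕ) : ℤ) := by push_cast; rfl
        rw [this, ← ha, zpow_natCast, pow_orderOf_eq_one]
      rcases Int.even_or_odd' t with ⟨s, hs | hs⟩
      · exfalso
        apply hw1
        rw [← hn, h4, hs, show (2 : ℤ) ^ (m - 1) * (2 * s) = (2 ^ m) * s by rw [h3]; ring, zpow_mul, h5, one_zpow]
      · rw [← hn, h4, hs, show (2 : ℤ) ^ (m - 1) * (2 * s + 1) = (2 ^ m) * s + 2 ^ (m - 1) by rw [h3]; ring, zpow_add, zpow_mul, h5, one_zpow, one_mul]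
    rw [key c i hi hc1 hcc, ← key v k hk hv1 hv2]
    exact Subgroup.pow_mem _ (Subgroup.mem_zpowers u) _
  intro H hH c hc
  obtain ⟨y, hyH, hyA⟩ : ∃ y ∈ H, y ∉ Subgroup.zpowers a := by
    by_contra hcon
    push Not at hcon
    exact hH (Subgroup.isCyclic_of_le hcon)
  obtain ⟨u, huH, huA, hu1⟩ : ∃ u ∈ H, u ∈ Subgroup.zpowers a ∧ u ≠ 1 := by
    by_contra hcon
    push Not at hcon
    apply hH
    have : H = Subgroup.zpowers y := by
      apply le_antisymm
      · intro w hw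
        by_cases hwA : w ∈ Subgroup.zpowers a
        · rw [hcon w hw hwA]; exact Subgroup.one_mem _
        · have h1 : w * y⁻¹ ∈ Subgroup.zpowers a := by
            rw [Subgroup.mul_mem_iff_of_index_two hidx, Subgroup.inv_mem_iff]
            exact ⟨fun h => absurd h hwA, fun h => absurd h hyA⟩
          have h2 := hcon _ (H.mul_mem hw (H.inv_mem hyH)) h1
          rw [mul_inv_eq_one.mp h2]; exact Subgroup.mem_zpowers y
      · rw [Subgroup.zpowers_le]; exact hyH
    rw [this]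
    infer_instance
  have hcy : c * y = y * c := ((Subgroup.mem_centralizer_iff.mp hc) y hyH).symm
  have hle : Subgroup.zpowers u ≤ H := by rw [Subgroup.zpowers_le]; exact huH
  by_cases hcA : c ∈ Subgroup.zpowers a
  · exact hle (hinv u huA hu1 c hcA (hK y hyA c hcA hcy))
  · have h1 : c * y⁻¹ ∈ Subgroup.zpowers a := by
      rw [Subgroup.mul_mem_iff_of_index_two hidx, Subgroup.inv_mem_iff]
      exact ⟨fun h => absurd h hcA, fun h => absurd h hyA⟩
    have h2 : (c * y⁻¹) * y = y * (c * y⁻¹) := by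
      rw [inv_mul_cancel_right, ← mul_assoc, ← hcy, mul_inv_cancel_right]
    have h3 := hle (hinv u huA hu1 _ h1 (hK y hyA _ h1 h2))
    have h4 := H.mul_mem h3 hyH
    rwa [inv_mul_cancel_right] at h4

theorem snc_dihedral (k : ℕ) : SNC (DihedralGroup (2 ^ (k + 2))) := by
  haveI : NeZero (2 ^ (k + 2)) := ⟨by positivity⟩
  have hmem : ∀ u : DihedralGroup (2 ^ (k + 2)), u ∈ Subgroup.zpowers (DihedralGroup.r 1 : DihedralGroup (2 ^ (k + 2))) ↔ ∃ i : ZMod (2 ^ (k + 2)), u = DihedralGroup.r i := by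
    intro u
    constructor
    · intro hu
      obtain ⟨i, rfl⟩ := Subgroup.mem_zpowers_iff.mp hu
      exact ⟨(i : ZMod (2 ^ (k + 2))), by rw [DihedralGroup.r_one_zpow]⟩
    · rintro ⟨i, rfl⟩
      obtain ⟨j, rfl⟩ := ZMod.intCast_surjective i
      rw [Subgroup.mem_zpowers_iff]
      exact ⟨j, by rw [DihedralGroup.r_one_zpow]⟩
  apply snc_of_cyc (DihedralGroup.r 1) (m := k + 2)
  · have h1 := (Subgroup.zpowers (DihedralGroup.r 1 : DihedralGroup (2 ^ (k + 2)))).card_mul_index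
    rw [Nat.card_zpowers, DihedralGroup.orderOf_r_one, DihedralGroup.nat_card, mul_comm 2] at h1
    exact Nat.eq_of_mul_eq_mul_left (by positivity) h1
  · rw [DihedralGroup.orderOf_r_one]
  · intro y hy c hc hcy
    obtain ⟨i, rfl⟩ := (hmem c).mp hc
    rcases y with j | j
    · exact absurd ((hmem _).mpr ⟨j, rfl⟩) hy
    · rw [DihedralGroup.r_mul_sr, DihedralGroup.sr_mul_r, DihedralGroup.sr.injEq] at hcy
      rw [DihedralGroup.r_mul_r, DihedralGroup.one_def, DihedralGroup.r.injEq]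
      linear_combination -hcy

theorem snc_quaternion (k : ℕ) : SNC (QuaternionGroup (2 ^ (k + 1))) := by
  haveI : NeZero (2 ^ (k + 1)) := ⟨by positivity⟩
  have hpow : ∀ n : ℕ, (QuaternionGroup.a 1 : QuaternionGroup (2 ^ (k + 1))) ^ n = QuaternionGroup.a (n : ZMod (2 * 2 ^ (k + 1))) := by
    intro n
    exact QuaternionGroup.a_one_pow n
  have hmem : ∀ u : QuaternionGroup (2 ^ (k + 1)), u ∈ Subgroup.zpowers (QuaternionGroup.a 1 : QuaternionGroup (2 ^ (k + 1))) ↔ ∃ i, u = QuaternionGroup.a i := by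
    intro u
    constructor
    · intro hu
      obtain ⟨n, rfl⟩ := (mem_powers_iff_mem_zpowers.mpr hu)
      exact ⟨_, hpow n⟩
    · rintro ⟨i, rfl⟩
      obtain ⟨j, rfl⟩ : ∃ j : ℕ, (j : ZMod (2 * 2 ^ (k + 1))) = i := ⟨i.val, ZMod.natCast_zmod_val i⟩
      rw [← hpow]
      exact Subgroup.pow_mem _ (Subgroup.mem_zpowers _) _
  have hord : orderOf (QuaternionGroup.a 1 : QuaternionGroup (2 ^ (k + 1))) = 2 * 2 ^ (k + 1) := QuaternionGroup.orderOf_a_one
  apply snc_of_cyc (QuaternionGroup.a 1) (m := k + 2)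
  · have h1 := (Subgroup.zpowers (QuaternionGroup.a 1 : QuaternionGroup (2 ^ (k + 1)))).card_mul_index
    rw [Nat.card_zpowers, hord, Nat.card_eq_fintype_card, QuaternionGroup.card] at h1
    have h2 : 0 < 2 ^ (k + 1) := by positivity
    nlinarith
  · rw [hord, ← pow_succ']
  · intro y hy c hc hcy
    obtain ⟨i, rfl⟩ := (hmem c).mp hc
    rcases y with j | j
    · exact absurd ((hmem _).mpr ⟨j, rfl⟩) hy
    · rw [QuaternionGroup.a_mul_xa, QuaternionGroup.xa_mul_a, QuaternionGroup.xa.injEq] at hcy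
      rw [QuaternionGroup.a_mul_a, QuaternionGroup.one_def, QuaternionGroup.a.injEq]
      linear_combination -hcy

theorem snc_semi {S : Type*} [Group S] [Finite S] (k : ℕ) (hS : Nat.card S = 2 ^ (k + 4)) (a b : S) (ha : orderOf a = 2 ^ (k + 3)) (hb : orderOf b = 2)
    (hba : b * a * b⁻¹ = a ^ (2 ^ (k + 2) - 1)) : SNC S := by
  have hidx : (Subgroup.zpowers a).index = 2 := by
    have h1 := (Subgroup.zpowers a).card_mul_index
    rw [Nat.card_zpowers, ha, hS, show k + 4 = (k + 3) + 1 from rfl, pow_succ] at h1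
    exact Nat.eq_of_mul_eq_mul_left (by positivity) h1
  have hz : ∀ n : ℤ, a ^ n = 1 ↔ (2 : ℤ) ^ (k + 3) ∣ n := by
    intro n
    rw [← orderOf_dvd_iff_zpow_eq_one, ha]
    push_cast
    rfl
  have hcast : ((2 ^ (k + 2) - 1 : ℕ) : ℤ) = (2 : ℤ) ^ (k + 2) - 1 := by
    rw [Nat.cast_sub Nat.one_le_two_pow]; push_cast; rfl
  have hbi : ∀ i : ℤ, b * a ^ i * b⁻¹ = a ^ (((2 : ℤ) ^ (k + 2) - 1) * i) := by
    intro i
    rw [← conj_zpow, hba, ← zpow_natCast, hcast, ← zpow_mul]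
  have hdiv : ∀ i : ℤ, (2 : ℤ) ^ (k + 3) ∣ ((2 : ℤ) ^ (k + 2) - 1) * i - i → (2 : ℤ) ^ (k + 3) ∣ 2 * i := by
    intro i h
    have h1 : ((2 : ℤ) ^ (k + 2) - 1) * i - i = (2 ^ (k + 1) - 1) * (2 * i) := by ring
    rw [h1] at h
    apply IsCoprime.dvd_of_dvd_mul_left _ h
    apply IsCoprime.pow_left
    exact ⟨2 ^ k, -1, by ring⟩
  have hbA : b ∉ Subgroup.zpowers a := by
    intro hbm
    obtain ⟨i, hi⟩ := Subgroup.mem_zpowers_iff.mp hbm
    have h1 : b * a ^ (1 : ℤ) * b⁻¹ = a ^ (1 : ℤ) := by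
      rw [← hi, ← zpow_add, ← zpow_neg, ← zpow_add]; congr 1; ring
    rw [hbi] at h1
    have h2 : a ^ (((2 : ℤ) ^ (k + 2) - 1) * 1 - 1) = 1 := by rw [zpow_sub, h1, mul_inv_cancel]
    have h3 := hdiv 1 ((hz _).mp h2)
    have h4 := Int.le_of_dvd (by norm_num) h3
    have h5 : (2 : ℤ) ^ (k + 3) = 8 * 2 ^ k := by ring
    have h6 : (0 : ℤ) < 2 ^ k := by positivity
    omega
  apply snc_of_cyc a hidx ha
  intro y hy c hc hcy
  obtain ⟨i, rfl⟩ := Subgroup.mem_zpowers_iff.mp hc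
  have h1 : y * b⁻¹ ∈ Subgroup.zpowers a := by
    rw [Subgroup.mul_mem_iff_of_index_two hidx, Subgroup.inv_mem_iff]
    exact ⟨fun h => absurd h hy, fun h => absurd h hbA⟩
  obtain ⟨j, hj⟩ := Subgroup.mem_zpowers_iff.mp h1
  have hyb : y = a ^ j * b := by rw [hj, inv_mul_cancel_right]
  have h2 : b * a ^ i * b⁻¹ = a ^ i := by
    rw [hyb] at hcy
    have h3 : a ^ j * (a ^ i * b) = a ^ j * (b * a ^ i) := by
      rw [← mul_assoc, ← zpow_add, add_comm, zpow_add, mul_assoc, hcy, mul_assoc]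
    rw [← mul_left_cancel h3, mul_inv_cancel_right]
  rw [hbi] at h2
  have h4 : a ^ (((2 : ℤ) ^ (k + 2) - 1) * i - i) = 1 := by rw [zpow_sub, h2, mul_inv_cancel]
  rw [← zpow_add, ← two_mul]
  exact (hz _).mpr (hdiv i ((hz _).mp h4))

end CfsgLib.SC11
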