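import Cfsg.Agent.LibSLw9

/-! irreducibility on the pencil, the trace identity for a pencil (helper26) -/
set_option autoImplicit false
set_option linter.unusedSectionVars false

namespace CfsgLib.SLw

open Matrix Module CfsgLib.Wt CfsgLib.WtQ CfsgLib.WtSp

section general

theorem irred_of_compl {G V : Type*} [Group G] [Finite G] [AddCommGroup V] [Module ℂ V] [Nontrivial V]
    (ρ : Representation ℂ G V)
    (h : ∀ S T : Subrepresentation ρ, IsCompl S.toSubmodule T.toSubmodule → S.toSubmodule = ⊥ ∨ T.toSubmodule = ⊥) :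
    ρ.IsIrreducible := by
  have hnt : Nontrivial (Subrepresentation ρ) := by
    refine ⟨⊥, ⊤, fun h1 => ?_⟩
    obtain ⟨v, hv⟩ := exists_ne (0 : V)
    have h4 : ∀ v, v ∈ (⊤ : Subrepresentation ρ) := fun _ => trivial
    rw [← h1] at h4
    have h5 : ∀ v : V, v = 0 := h4
    exact hv (h5 v)
  refine ⟨fun S => ?_⟩
  obtain ⟨T, hT⟩ := CfsgLib.CharBasic.exists_compl ρ S
  rcases h S T hT with h1 | h1
  · left; exact Subrepresentation.toSubmodule_injective h1
  · right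
    apply Subrepresentation.toSubmodule_injective
    rw [h1] at hT
    exact eq_top_of_isCompl_bot hT

end general

variable {ι : Type} [Fintype ι] [DecidableEq ι] {F : Type*} [Field F] [Finite F]

theorem exists_kill0 (W : Submodule F (ι → F)) (hW : finrank F W < Fintype.card ι) :
    ∃ a : ι → F, a ≠ 0 ∧ ∀ w ∈ W, w ⬝ᵥ a = 0 := by
  have h1 : ∃ b, b ∉ W := by
    by_contra hcon
    push Not at hcon
    rw [show W = ⊤ from eq_top_iff.mpr fun x _ => hcon x, finrank_top, Module.finrank_fintype_fun_eq_card] at hW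
    exact lt_irrefl _ hW
  obtain ⟨b, hb⟩ := h1
  obtain ⟨u, hu, hbu⟩ := exists_vec W hb
  refine ⟨u, ?_, hu⟩
  rintro rfl
  rw [dotProduct_zero] at hbu
  exact zero_ne_one hbu

theorem exists_g {f f' : ι → F} {W : Submodule F (ι → F)} (hW : W = Submodule.span F {f, f'})
    (hff' : f ∉ Submodule.span F {f'}) (hf'f : f' ∉ Submodule.span F {f}) {y : ι → F} (hy : y ∈ W) (hy0 : y ≠ 0) :
    ∃ g : PW W, ∃ s : F, s ≠ 0 ∧ y = s • (f ᵥ* ((g : SpecialLinearGroup ι F) : Matrix ι ι F)) := by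
  have hf : f ∈ W := by rw [hW]; exact Submodule.subset_span (by simp)
  have hf' : f' ∈ W := by rw [hW]; exact Submodule.subset_span (by simp)
  obtain ⟨u, hu, hfu⟩ := exists_vec _ hff'
  have hf'u : f' ⬝ᵥ u = 0 := hu f' (Submodule.mem_span_singleton_self _)
  obtain ⟨u', hu', hf'u'⟩ := exists_vec _ hf'f
  have hfu' : f ⬝ᵥ u' = 0 := hu' f (Submodule.mem_span_singleton_self _)
  have hy' := hy
  rw [hW] at hy'
  obtain ⟨α, β, rfl⟩ := Submodule.mem_span_pair.mp hy'
  by_cases hα : α = 0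
  · subst hα
    rw [zero_smul, zero_add] at hy0 ⊢
    have hβ : β ≠ 0 := by
      rintro rfl
      rw [zero_smul] at hy0
      exact hy0 rfl
    have h2 : (-f) ⬝ᵥ u' = 0 := by rw [neg_dotProduct, hfu', neg_zero]
    refine ⟨⟨tv u f' hf'u, tv_mem_PW W hf'u hf'⟩ * ⟨tv u' (-f) h2, tv_mem_PW W h2 (W.neg_mem hf)⟩, β, hβ, ?_⟩
    congr 1
    change f' = f ᵥ* ((tv u f' hf'u * tv u' (-f) h2 : SpecialLinearGroup ι F) : Matrix ι ι F)
    rw [Matrix.SpecialLinearGroup.coe_mul, ← vecMul_vecMul, vecMul_tv f, hfu, one_smul, vecMul_tv, add_dotProduct, hfu', hf'u',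
      zero_add, one_smul]
    abel
  · have h2 : ((α⁻¹ * β) • f') ⬝ᵥ u = 0 := by rw [smul_dotProduct, hf'u, smul_zero]
    refine ⟨⟨tv u ((α⁻¹ * β) • f') h2, tv_mem_PW W h2 (W.smul_mem _ hf')⟩, α, hα, ?_⟩
    change α • f + β • f' = α • (f ᵥ* (tv u ((α⁻¹ * β) • f') h2 : Matrix ι ι F))
    rw [vecMul_tv, hfu, one_smul, smul_add, smul_smul, mul_inv_cancel_left₀ hα]

variable {U : Type*} [AddCommGroup U] [Module ℂ U]

theorem all_trivial {f f' : ι → F} {W : Submodule F (ι → F)} (hW : W = Submodule.span F {f, f'}) (hf : f ∈ W)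
    (hff' : f ∉ Submodule.span F {f'}) (hf'f : f' ∉ Submodule.span F {f}) (τ : Representation ℂ (PW W) U)
    (h : ∀ x : K f, τ (jW W f hf (Multiplicative.ofAdd x)) = 1) (y : ι → F) (hy : y ∈ W) (x : K y) :
    τ (jW W y hy (Multiplicative.ofAdd x)) = 1 := by
  by_cases hy0 : y = 0
  · subst hy0
    have : jW W 0 hy (Multiplicative.ofAdd x) = 1 := by
      apply Subtype.ext
      apply Subtype.ext
      change 1 + vecMulVec (x : ι → F) 0 = 1
      rw [vecMulVec_zero, add_zero]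
    rw [this, map_one]
  · obtain ⟨g, s, hs, rfl⟩ := exists_g hW hff' hf'f hy hy0
    have hx' : f ⬝ᵥ (s • (((g : SpecialLinearGroup ι F) : Matrix ι ι F) *ᵥ (x : ι → F))) = 0 := by
      rw [dotProduct_smul, dotProduct_mulVec, ← smul_dotProduct]
      exact x.2
    have e : jW W _ hy (Multiplicative.ofAdd x) = g⁻¹ * jW W f hf (Multiplicative.ofAdd ⟨_, hx'⟩) * g := by
      apply Subtype.ext
      change tv (x : ι → F) (s • (f ᵥ* ((g : SpecialLinearGroup ι F) : Matrix ι ι F))) x.2 =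
        (g : SpecialLinearGroup ι F)⁻¹ * tv (s • (((g : SpecialLinearGroup ι F) : Matrix ι ι F) *ᵥ (x : ι → F))) f hx' *
          (g : SpecialLinearGroup ι F)
      rw [tv_conj']
      apply tv_congr
      rw [mulVec_smul, mulVec_mulVec, ← Matrix.SpecialLinearGroup.coe_mul, inv_mul_cancel, Matrix.SpecialLinearGroup.coe_one,
        one_mulVec, vecMulVec_smul, smul_vecMulVec]
    rw [e, map_mul, map_mul, h, mul_one, ← map_mul, inv_mul_cancel, map_one]

/-- the torus of the pencil -/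
theorem exists_torusW (hn : 3 ≤ Fintype.card ι) {f f' : ι → F} {W : Submodule F (ι → F)} (hW : W = Submodule.span F {f, f'})
    (hf'f : f' ∉ Submodule.span F {f}) {s : F} (hs : s ≠ 0) :
    ∃ g : PW W, f ᵥ* ((g : SpecialLinearGroup ι F) : Matrix ι ι F) = f ∧
      f ᵥ* (((g : SpecialLinearGroup ι F)⁻¹ : SpecialLinearGroup ι F) : Matrix ι ι F) = f ∧
      f' ᵥ* ((g : SpecialLinearGroup ι F) : Matrix ι ι F) = s • f' := by
  obtain ⟨u, hu, hf'u⟩ := exists_vec _ hf'f
  have hfu : f ⬝ᵥ u = 0 := hu f (Submodule.mem_span_singleton_self _)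
  obtain ⟨a, ha0, ha⟩ := exists_kill0 (Submodule.span F {f, f'}) (by
    have := finrank_span_pair_le (F := F) f f'
    omega)
  have hfa : f ⬝ᵥ a = 0 := ha f (Submodule.subset_span (by simp))
  have hf'a : f' ⬝ᵥ a = 0 := ha f' (Submodule.subset_span (by simp))
  obtain ⟨w, -, hwa⟩ := exists_vec (⊥ : Submodule F (ι → F)) (b := a) (by rwa [Submodule.mem_bot])
  rw [dotProduct_comm] at hwa
  set A : Matrix ι ι F := (1 + vecMulVec ((s - 1) • u) f') * (1 + vecMulVec ((s⁻¹ - 1) • a) w) with hA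
  have hdet : A.det = 1 := by
    rw [hA, det_mul, det_T, det_T, dotProduct_smul, dotProduct_smul, hf'u, hwa, smul_eq_mul, smul_eq_mul]
    field_simp
    ring
  let g : SpecialLinearGroup ι F := ⟨A, hdet⟩
  have hinv : ∀ (w u : ι → F), w ᵥ* (g : Matrix ι ι F) = u → u ᵥ* ((g⁻¹ : SpecialLinearGroup ι F) : Matrix ι ι F) = w := by
    intro w u h
    rw [← h, vecMul_vecMul, ← Matrix.SpecialLinearGroup.coe_mul, mul_inv_cancel, Matrix.SpecialLinearGroup.coe_one, vecMul_one]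
  have e1 : f ᵥ* (g : Matrix ι ι F) = f := by
    change f ᵥ* A = f
    have h1 : f ᵥ* (1 + vecMulVec ((s - 1) • u) f') = f := by
      rw [vecMul_add, vecMul_one, vecMul_vecMulVec, dotProduct_smul, hfu, smul_zero, zero_smul, add_zero]
    rw [hA, ← vecMul_vecMul, h1, vecMul_add, vecMul_one, vecMul_vecMulVec, dotProduct_smul, hfa, smul_zero, zero_smul, add_zero]
  have e2 : f' ᵥ* (g : Matrix ι ι F) = s • f' := by
    change f' ᵥ* A = s • f'
    have h1 : f' ᵥ* (1 + vecMulVec ((s - 1) • u) f') = s • f' := by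
      rw [vecMul_add, vecMul_one, vecMul_vecMulVec, dotProduct_smul, hf'u, smul_eq_mul, mul_one, sub_smul, one_smul,
        add_sub_cancel]
    rw [hA, ← vecMul_vecMul, h1, vecMul_add, vecMul_one, vecMul_vecMulVec, dotProduct_smul, smul_dotProduct, hf'a, smul_zero,
      smul_zero, zero_smul, add_zero]
  have e3 : f' ᵥ* ((g⁻¹ : SpecialLinearGroup ι F) : Matrix ι ι F) = s⁻¹ • f' := by
    have h1 := hinv _ _ e2
    rw [smul_vecMul] at h1
    have h2 := congrArg (s⁻¹ • ·) h1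
    simp only [smul_smul, inv_mul_cancel₀ hs, one_smul] at h2
    exact h2
  have hg : g ∈ PW W := by
    intro y hy
    rw [hW] at hy ⊢
    obtain ⟨α, β, rfl⟩ := Submodule.mem_span_pair.mp hy
    rw [add_vecMul, smul_vecMul, smul_vecMul, e1, e2, add_vecMul, smul_vecMul, smul_vecMul, hinv _ _ e1, e3]
    exact ⟨Submodule.add_mem _ (Submodule.smul_mem _ _ (Submodule.subset_span (by simp)))
      (Submodule.smul_mem _ _ (Submodule.smul_mem _ _ (Submodule.subset_span (by simp)))),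
      Submodule.add_mem _ (Submodule.smul_mem _ _ (Submodule.subset_span (by simp)))
      (Submodule.smul_mem _ _ (Submodule.smul_mem _ _ (Submodule.subset_span (by simp))))⟩
  exact ⟨⟨g, hg⟩, e1, hinv _ _ e1, e2⟩

/-- characters trivial on the common zeros -/
theorem exists_gamma {ψ : AddChar F ℂ} (hψ : ψ ≠ 1) {f f' : ι → F} (hf'f : f' ∉ Submodule.span F {f}) (χ : AddChar (K f) ℂ)
    (hχ : ∀ x ∈ kk f f', χ x = 1) : ∃ γ : F, ∀ x : K f, χ x = ψ (γ * (f' ⬝ᵥ (x : ι → F))) := by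
  obtain ⟨u, hu, hf'u⟩ := exists_vec _ hf'f
  have hfu : f ⬝ᵥ u = 0 := hu f (Submodule.mem_span_singleton_self _)
  obtain ⟨γ, hγ⟩ := psi_surj hψ ⟨fun t => χ (sK f u hfu t), by
    have : sK f u hfu 0 = 0 := Subtype.ext (zero_smul F u)
    rw [this, AddChar.map_zero_eq_one], fun s t => by
    have : sK f u hfu (s + t) = sK f u hfu s + sK f u hfu t := Subtype.ext (add_smul s t u)
    rw [this, AddChar.map_add_eq_mul]⟩
  refine ⟨γ, fun x => ?_⟩
  rw [← hγ]
  change χ x = χ (sK f u hfu _)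
  have h1 : χ (x - sK f u hfu (f' ⬝ᵥ (x : ι → F))) = 1 := by
    apply hχ
    rw [mem_kk]
    change f' ⬝ᵥ ((x : ι → F) - (f' ⬝ᵥ (x : ι → F)) • u) = 0
    rw [dotProduct_sub, dotProduct_smul, hf'u, smul_eq_mul, mul_one, sub_self]
  rw [AddChar.map_sub_eq_div, div_eq_one_iff_eq (AddChar.val_isUnit _ _).ne_zero] at h1
  exact h1

theorem wt_move (hn : 3 ≤ Fintype.card ι) {f f' : ι → F} {W : Submodule F (ι → F)} (hW : W = Submodule.span F {f, f'})
    (hf : f ∈ W) (hf'f : f' ∉ Submodule.span F {f}) (τ : Representation ℂ (PW W) U) {χ χ' : AddChar (K f) ℂ} (hχ : χ ≠ 0)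
    (hχ' : χ' ≠ 0) (h1 : ∀ x ∈ kk f f', χ x = 1) (h1' : ∀ x ∈ kk f f', χ' x = 1) (h : wt τ (jW W f hf) χ ≠ ⊥) :
    wt τ (jW W f hf) χ' ≠ ⊥ := by
  obtain ⟨ψ, hψ⟩ := exists_psi F
  obtain ⟨γ, hγ⟩ := exists_gamma hψ hf'f χ h1
  obtain ⟨γ', hγ'⟩ := exists_gamma hψ hf'f χ' h1'
  have hγ0 : γ ≠ 0 := by
    rintro rfl
    apply hχ
    ext x
    rw [hγ, zero_mul, AddChar.map_zero_eq_one]; rfl
  have hγ'0 : γ' ≠ 0 := by
    rintro rfl
    apply hχ'
    ext x
    rw [hγ', zero_mul, AddChar.map_zero_eq_one]; rfl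
  obtain ⟨g, hg1, hg2, hg3⟩ := exists_torusW hn hW hf'f (s := γ⁻¹ * γ') (mul_ne_zero (inv_ne_zero hγ0) hγ'0)
  let α : K f →+ K f :=
    { toFun := fun x => ⟨((g : SpecialLinearGroup ι F) : Matrix ι ι F) *ᵥ (x : ι → F), by
        rw [mem_K, dotProduct_mulVec, hg1]; exact x.2⟩
      map_zero' := Subtype.ext (mulVec_zero _)
      map_add' := fun x y => Subtype.ext (mulVec_add _ _ _) }
  have h2 := wt_comp_ne_bot τ (jW W f hf) g α (fun x => by
    apply Subtype.ext
    change (g : SpecialLinearGroup ι F) * tv (x : ι → F) f x.2 * (g : SpecialLinearGroup ι F)⁻¹ =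
      tv (((g : SpecialLinearGroup ι F) : Matrix ι ι F) *ᵥ (x : ι → F)) f (α x).2
    refine (tv_conj (g : SpecialLinearGroup ι F) (x : ι → F) f x.2).trans (tv_congr _ _ ?_)
    rw [hg2]) χ h
  have h3 : χ.compAddMonoidHom α = χ' := by
    ext x
    rw [AddChar.compAddMonoidHom_apply, hγ, hγ']
    congr 1
    change γ * (f' ⬝ᵥ (((g : SpecialLinearGroup ι F) : Matrix ι ι F) *ᵥ (x : ι → F))) = _
    rw [dotProduct_mulVec, hg3, smul_dotProduct, smul_eq_mul, ← mul_assoc, mul_inv_cancel_left₀ hγ0]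
  rwa [h3] at h2

/-- irreducibility -/
theorem irred_N (hn : 3 ≤ Fintype.card ι) {f f' : ι → F} {W : Submodule F (ι → F)} (hW : W = Submodule.span F {f, f'})
    (hf : f ∈ W) (hff' : f ∉ Submodule.span F {f'}) (hf'f : f' ∉ Submodule.span F {f}) [FiniteDimensional ℂ U] [Nontrivial U]
    (τ : Representation ℂ (PW W) U)
    (h0 : (fixS W τ).toSubmodule = ⊥)
    (h1 : ∀ χ : AddChar (K f) ℂ, χ ≠ 0 → (∀ x ∈ kk f f', χ x = 1) → finrank ℂ (wt τ (jW W f hf) χ) = 1)
    (h2 : ∀ χ : AddChar (K f) ℂ, ¬ (∀ x ∈ kk f f', χ x = 1) → finrank ℂ (wt τ (jW W f hf) χ) = 0) : τ.IsIrreducible := by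
  apply irred_of_compl
  intro S T hST
  by_contra hcon
  push Not at hcon
  obtain ⟨hS, hT⟩ := hcon
  have key : ∀ S T : Subrepresentation τ, IsCompl S.toSubmodule T.toSubmodule → S.toSubmodule ≠ ⊥ →
      ∃ χ : AddChar (K f) ℂ, χ ≠ 0 ∧ (∀ x ∈ kk f f', χ x = 1) ∧ wt S.toRepresentation (jW W f hf) χ ≠ ⊥ := by
    intro S T hST hS
    have h3 : ∃ χ : AddChar (K f) ℂ, χ ≠ 0 ∧ wt S.toRepresentation (jW W f hf) χ ≠ ⊥ := by
      by_contra hcon
      push Not at hcon
      apply hS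
      have h4 : ∀ x : K f, S.toRepresentation (jW W f hf (Multiplicative.ofAdd x)) = 1 := by
        intro x
        refine apply_eq_of_forall S.toRepresentation (jW W f hf) x fun χ hχ => ?_
        by_cases h5 : χ = 0
        · rw [h5, AddChar.zero_apply]
        · exact absurd (hcon χ h5) hχ
      rw [eq_bot_iff, ← h0]
      intro v hv
      rw [mem_fixS]
      intro y hy x
      have h6 := all_trivial hW hf hff' hf'f S.toRepresentation h4 y hy x
      exact congrArg Subtype.val (LinearMap.congr_fun h6 ⟨v, hv⟩)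
    obtain ⟨χ, hχ, hwt⟩ := h3
    refine ⟨χ, hχ, ?_, hwt⟩
    by_contra h4
    have h5 := h2 χ h4
    rw [finrank_wt_add τ (jW W f hf) S T hST] at h5
    have h6 : finrank ℂ (wt S.toRepresentation (jW W f hf) χ) = 0 := by omega
    exact hwt (Submodule.finrank_eq_zero.mp h6)
  obtain ⟨χ, hχ, hχ2, hwt⟩ := key S T hST hS
  obtain ⟨χ', hχ', hχ2', hwt'⟩ := key T S hST.symm hT
  have h3 := wt_move hn hW hf hf'f S.toRepresentation hχ hχ' hχ2 hχ2' hwt
  have h4 := h1 χ' hχ' hχ2'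
  rw [finrank_wt_add τ (jW W f hf) S T hST] at h4
  have h5 : finrank ℂ (wt S.toRepresentation (jW W f hf) χ') ≠ 0 := fun h => h3 (Submodule.finrank_eq_zero.mp h)
  have h6 : finrank ℂ (wt T.toRepresentation (jW W f hf) χ') ≠ 0 := fun h => hwt' (Submodule.finrank_eq_zero.mp h)
  omega

end CfsgLib.SLw
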