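import Cfsg.Agent.LibSLw10

/-! the trace identity for a pencil, and the bound (helper26) -/
set_option autoImplicit false
set_option linter.unusedSectionVars false

namespace CfsgLib.SLw

open Matrix Module CfsgLib.Wt CfsgLib.WtQ CfsgLib.WtSp

variable {ι : Type} [Fintype ι] [DecidableEq ι] {F : Type*} [Field F] [Finite F]

section pencil

variable {U : Type*} [AddCommGroup U] [Module ℂ U] [FiniteDimensional ℂ U] {W : Submodule F (ι → F)}

theorem pr_jW_smul (τ : Representation ℂ (PW W) U) {y : ι → F} (hy : y ∈ W) {s : F} (hs : s ≠ 0) (hsy : s • y ∈ W) :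
    pr τ (jW W (s • y) hsy) 0 = pr τ (jW W y hy) 0 := by
  have h := pr_conj τ (jW W (s • y) hsy) (jW W y hy) 1 (kSmul s hs y) fun x => by
    rw [one_mul, inv_one, mul_one]
    apply Subtype.ext
    change tv (x : ι → F) (s • y) x.2 = tv (s • (x : ι → F)) y (kSmul s hs y x).2
    apply tv_congr
    rw [vecMulVec_smul, smul_vecMulVec]
  rw [map_one, one_mul, mul_one] at h
  exact h

theorem pr_sq (τ : Representation ℂ (PW W) U) {y : ι → F} (hy : y ∈ W) :
    pr τ (jW W y hy) 0 * pr τ (jW W y hy) 0 = pr τ (jW W y hy) 0 := by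
  classical
  apply LinearMap.ext
  intro v
  rw [Module.End.mul_apply, pr_of_mem τ _ 0 0 (pr_mem τ _ 0 v), if_pos rfl]

/-- nonzero elements of the pencil -/
def Y (W : Submodule F (ι → F)) : Type _ := {y : ι → F // y ∈ W ∧ y ≠ 0}

instance (W : Submodule F (ι → F)) : Finite (Y W) := inferInstanceAs (Finite {y : ι → F // y ∈ W ∧ y ≠ 0})

noncomputable instance (W : Submodule F (ι → F)) : Fintype (Y W) := Fintype.ofFinite _

theorem card_ne {A : Type*} [Finite A] (a : A) : Nat.card {x : A // x ≠ a} + 1 = Nat.card A := by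
  classical
  cases nonempty_fintype A
  rw [Nat.card_eq_fintype_card, Nat.card_eq_fintype_card, Fintype.card_subtype, Finset.filter_ne',
    Finset.card_erase_of_mem (Finset.mem_univ _), Finset.card_univ]
  have : 0 < Fintype.card A := Fintype.card_pos_iff.mpr ⟨a⟩
  omega

theorem card_Y (W : Submodule F (ι → F)) : Fintype.card (Y W) + 1 = Nat.card W := by
  rw [← Nat.card_eq_fintype_card, ← card_ne (0 : W)]
  congr 1
  exact Nat.card_congr ⟨fun y => ⟨⟨y.1, y.2.1⟩, fun h => y.2.2 (congrArg Subtype.val h)⟩,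
    fun w => ⟨w.1.1, w.1.2, fun h => w.2 (Subtype.ext h)⟩, fun y => rfl, fun w => rfl⟩

/-- the action on the pencil -/
def piY (g : PW W) : Equiv.Perm (Y W) where
  toFun y := ⟨y.1 ᵥ* (((g : SpecialLinearGroup ι F)⁻¹ : SpecialLinearGroup ι F) : Matrix ι ι F), (g.2 _ y.2.1).2, fun h => by
    apply y.2.2
    have := congrArg (fun w => w ᵥ* ((g : SpecialLinearGroup ι F) : Matrix ι ι F)) h
    simp only [vecMul_vecMul, zero_vecMul] at this
    rwa [← Matrix.SpecialLinearGroup.coe_mul, inv_mul_cancel, Matrix.SpecialLinearGroup.coe_one, vecMul_one] at this⟩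
  invFun y := ⟨y.1 ᵥ* ((g : SpecialLinearGroup ι F) : Matrix ι ι F), (g.2 _ y.2.1).1, fun h => by
    apply y.2.2
    have := congrArg (fun w => w ᵥ* (((g : SpecialLinearGroup ι F)⁻¹ : SpecialLinearGroup ι F) : Matrix ι ι F)) h
    simp only [vecMul_vecMul, zero_vecMul] at this
    rwa [← Matrix.SpecialLinearGroup.coe_mul, mul_inv_cancel, Matrix.SpecialLinearGroup.coe_one, vecMul_one] at this⟩
  left_inv y := by
    apply Subtype.ext
    change (y.1 ᵥ* _) ᵥ* _ = y.1
    rw [vecMul_vecMul, ← Matrix.SpecialLinearGroup.coe_mul, inv_mul_cancel, Matrix.SpecialLinearGroup.coe_one, vecMul_one]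
  right_inv y := by
    apply Subtype.ext
    change (y.1 ᵥ* _) ᵥ* _ = y.1
    rw [vecMul_vecMul, ← Matrix.SpecialLinearGroup.coe_mul, mul_inv_cancel, Matrix.SpecialLinearGroup.coe_one, vecMul_one]

theorem card_par (y : Y W) [DecidablePred fun y' : Y W => y'.1 ∈ Submodule.span F {y.1}] :
    (Finset.univ.filter fun y' : Y W => y'.1 ∈ Submodule.span F {y.1}).card + 1 = Nat.card F := by
  classical
  have h1 : Nat.card {s : F // s ≠ 0} + 1 = Nat.card F := card_ne 0
  rw [← h1, ← Fintype.card_subtype, ← Nat.card_eq_fintype_card]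
  congr 1
  refine (Nat.card_congr (Equiv.ofBijective (fun s : {s : F // s ≠ 0} => (⟨⟨s.1 • y.1, W.smul_mem _ y.2.1,
    smul_ne_zero s.2 y.2.2⟩, Submodule.smul_mem _ _ (Submodule.mem_span_singleton_self _)⟩ :
    {y' : Y W // y'.1 ∈ Submodule.span F {y.1}})) ⟨fun s t h => ?_, fun y' => ?_⟩)).symm
  · have h2 : s.1 • y.1 = t.1 • y.1 := congrArg (fun z : {y' : Y W // y'.1 ∈ Submodule.span F {y.1}} => z.1.1) h
    exact Subtype.ext (smul_left_injective F y.2.2 h2)
  · obtain ⟨s, hs⟩ := Submodule.mem_span_singleton.mp y'.2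
    have hs0 : s ≠ 0 := by
      rintro rfl
      rw [zero_smul] at hs
      exact y'.1.2.2 hs.symm
    exact ⟨⟨s, hs0⟩, Subtype.ext (Subtype.ext hs)⟩

theorem lemmaW (τ : Representation ℂ (PW W) U) (hirr : τ.IsIrreducible) (k t : ℂ) {y₀ : ι → F} (hy₀ : y₀ ∈ W) (hy₀' : y₀ ≠ 0)
    (hk : ∀ (y : ι → F) (hy : y ∈ W), y ≠ 0 → (finrank ℂ (wt τ (jW W y hy) 0) : ℂ) = k)
    (ht : ∀ (y y' : ι → F) (hy : y ∈ W) (hy' : y' ∈ W), y ≠ 0 → y' ∉ Submodule.span F {y} →
      LinearMap.trace ℂ U (pr τ (jW W y hy) 0 * pr τ (jW W y' hy') 0) = t) :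
    ((Nat.card W : ℂ) - 1) * k ^ 2 = (finrank ℂ U : ℂ) * (((Nat.card F : ℂ) - 1) * k + ((Nat.card W : ℂ) - Nat.card F) * t) := by
  classical
  have hYc := card_Y W
  have hpar := card_par (⟨y₀, hy₀, hy₀'⟩ : Y W)
  have hle := Finset.card_filter_le (Finset.univ : Finset (Y W)) (fun y' : Y W => y'.1 ∈ Submodule.span F {y₀})
  rw [Finset.card_univ] at hle
  have hpos : 0 < Fintype.card (Y W) := Fintype.card_pos_iff.mpr ⟨⟨y₀, hy₀, hy₀'⟩⟩
  have h1 := lemmaA τ hirr (fun y : Y W => pr τ (jW W y.1 y.2.1) 0) piY (fun g y => by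
      have := pr_conj τ (jW W y.1 y.2.1) (jW W (piY g y).1 (piY g y).2.1) g (kEquiv (g : SpecialLinearGroup ι F) y.1)
        (fun x => by
          apply Subtype.ext
          exact tv_conj (g : SpecialLinearGroup ι F) (x : ι → F) y.1 x.2)
      exact this) k t
    (fun y y' => y'.1 ∈ Submodule.span F {y.1}) (Nat.card F - 1) (Fintype.card (Y W) - (Nat.card F - 1))
    (fun y => by rw [trace_pr]; exact hk y.1 y.2.1 y.2.2)
    (fun y y' h => by
      obtain ⟨y', hy', hy'0⟩ := y'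
      obtain ⟨s, hs⟩ := Submodule.mem_span_singleton.mp h
      change s • y.1 = y' at hs
      subst hs
      have hs0 : s ≠ 0 := by
        rintro rfl
        rw [zero_smul] at hy'0
        exact hy'0 rfl
      change LinearMap.trace ℂ U (pr τ (jW W y.1 y.2.1) 0 * pr τ (jW W (s • y.1) hy') 0) = k
      rw [pr_jW_smul τ y.2.1 hs0 hy', pr_sq, trace_pr]
      exact hk y.1 y.2.1 y.2.2)
    (fun y y' h => ht y.1 y'.1 y.2.1 y'.2.1 y.2.2 h)
    (fun y => by have := card_par y; omega) (by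
      have e1 : (Finset.univ.filter fun y' : Y W => y'.1 ∈ Submodule.span F {y₀}).card = Nat.card F - 1 := by
        have : (Finset.univ.filter fun y' : Y W => y'.1 ∈ Submodule.span F {y₀}).card + 1 = Nat.card F := hpar
        omega
      rw [e1] at hle
      omega) hpos
  have hq : 1 ≤ Nat.card F := Nat.card_pos
  have e1 : (Finset.univ.filter fun y' : Y W => y'.1 ∈ Submodule.span F {y₀}).card + 1 = Nat.card F := hpar
  have c1 : (Fintype.card (Y W) : ℂ) = (Nat.card W : ℂ) - 1 := by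
    rw [← hYc]; push_cast; ring
  have c2 : ((Nat.card F - 1 : ℕ) : ℂ) = (Nat.card F : ℂ) - 1 := by
    rw [Nat.cast_sub hq, Nat.cast_one]
  have c3 : ((Fintype.card (Y W) - (Nat.card F - 1) : ℕ) : ℂ) = (Nat.card W : ℂ) - Nat.card F := by
    rw [Nat.cast_sub (by omega), c1, c2]; ring
  rw [c1, c2, c3] at h1
  exact h1

end pencil

end CfsgLib.SLw
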