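import Cfsg.Agent.LibSLw11

/-! the bound for `SL` (helper26) -/
set_option autoImplicit false
set_option linter.unusedSectionVars false

namespace CfsgLib.SLw

open Matrix Module CfsgLib.Wt CfsgLib.WtQ CfsgLib.WtSp

section general

variable {G V M : Type*} [Group G] [AddCommGroup V] [Module ℂ V] [AddCommGroup M] [Fintype M]

theorem coe_pr_sub (ρ : Representation ℂ G V) (j : Multiplicative M →* G) (S : Subrepresentation ρ) (χ : AddChar M ℂ)
    (w : S.toSubmodule) : ((pr S.toRepresentation j χ w : S.toSubmodule) : V) = pr ρ j χ (w : V) := by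
  rw [pr_apply, pr_apply, Submodule.coe_smul, Submodule.coe_sum]
  rfl

theorem numeric {c d q S k : ℤ} (hq : 2 ≤ q) (hS : 3 ≤ S) (hc : 0 ≤ c) (hk : 0 ≤ k) (hd : d = c + S * q - 1)
    (J : (S * q ^ 2 - 1) * c * (k + q - 1) = (q * (S - 1) * (q - 1 + k) + k * (q ^ 2 - 1)) * (c + S * q - 1)) :
    q * (S * q - 1) ≤ (q - 1) * d := by
  have hSq : 6 ≤ S * q := by nlinarith
  rcases eq_or_lt_of_le hk with h0 | hk1
  · subst h0
    exfalso
    have h1 : (c * (q - 1) * (q * S + 1)) * (q - 1) = (q * (S - 1) * (S * q - 1)) * (q - 1) := by linear_combination J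
    have hq1 : q - 1 ≠ 0 := by omega
    have h2 := mul_right_cancel₀ hq1 h1
    have h3 : (q * S + 1) ∣ 2 * (q + 1) := by
      refine ⟨c * (q - 1) - q * (S - 1) + 2, ?_⟩
      linear_combination -h2
    have h4 := Int.le_of_dvd (by omega) h3
    nlinarith
  · by_contra hcon
    push Not at hcon
    rw [hd] at hcon
    have h1 : (q - 1) * c < S * q - 1 := by nlinarith
    have h2 : 0 ≤ (q ^ 2 - 1) * (q - 1) * (k - 1) := by
      apply mul_nonneg (mul_nonneg _ _) <;> nlinarith
    have h3 : (S * q ^ 2 - 1) * (k + q - 1) ≤ q * (q * (S - 1) * (q - 1 + k) + k * (q ^ 2 - 1)) := by nlinarith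
    have h4 : 0 < c + S * q - 1 := by nlinarith
    have h5 : (S * q ^ 2 - 1) * (k + q - 1) * (c + S * q - 1) ≤ q * ((S * q ^ 2 - 1) * c * (k + q - 1)) := by
      rw [J, ← mul_assoc]
      exact mul_le_mul_of_nonneg_right h3 h4.le
    have h6 : 0 < (S * q ^ 2 - 1) * (k + q - 1) := by
      apply mul_pos <;> nlinarith
    have h7 : (S * q ^ 2 - 1) * (k + q - 1) * (c + S * q - 1) ≤ (S * q ^ 2 - 1) * (k + q - 1) * (q * c) := by
      calc _ ≤ _ := h5
        _ = _ := by ring
    have h8 := le_of_mul_le_mul_left h7 h6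
    nlinarith

end general

variable {ι : Type} [Fintype ι] [DecidableEq ι] {F : Type*} [Field F] [Finite F]
variable {V : Type*} [AddCommGroup V] [Module ℂ V] [FiniteDimensional ℂ V]
  {ρ : Representation ℂ (SpecialLinearGroup ι F) V}

theorem T_split {f f' : ι → F} {W : Submodule F (ι → F)} (hW : W = Submodule.span F {f, f'}) (hf : f ∈ W) (hf' : f' ∈ W)
    (N : Subrepresentation (s2 ρ W)) (hN : IsCompl (fixS W (s2 ρ W)).toSubmodule N.toSubmodule) :
    LinearMap.trace ℂ V (ef ρ f * ef ρ f') = (finrank ℂ (fixS W (s2 ρ W)).toSubmodule : ℂ) +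
      LinearMap.trace ℂ N.toSubmodule (pr N.toRepresentation (jW W f hf) 0 * pr N.toRepresentation (jW W f' hf') 0) := by
  classical
  obtain ⟨C, hC⟩ := CfsgLib.CharBasic.exists_compl (sg ρ W) (fix2 W (sg ρ W))
  have e1 := trace_mul_add (sg ρ W) (jW W f hf) (jW W f' hf') 0 0 _ _ hC
  have e2 : LinearMap.trace ℂ C.toSubmodule (pr C.toRepresentation (jW W f hf) 0 * pr C.toRepresentation (jW W f' hf') 0) = 0 := by
    have : pr C.toRepresentation (jW W f hf) 0 * pr C.toRepresentation (jW W f' hf') 0 = 0 := by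
      apply LinearMap.ext
      intro w
      apply Subtype.ext
      rw [Module.End.mul_apply, coe_pr_sub, coe_pr_sub]
      have hmem : pr (sg ρ W) (jW W f hf) 0 (pr (sg ρ W) (jW W f' hf') 0 (w : V)) ∈ (fix2 W (sg ρ W)).toSubmodule := by
        rw [mem_V2_iff hW]
        intro x hx hx'
        rw [pr_sg, pr_sg]
        constructor
        · have := pr_mem ρ (jf f) 0 (pr ρ (jf f') 0 (w : V)) ⟨x, hx⟩
          rwa [AddChar.zero_apply, one_smul] at this
        · have h1 := LinearMap.congr_fun (comm_tv_ef ρ hx hx') (pr ρ (jf f') 0 (w : V))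
          rw [Module.End.mul_apply, Module.End.mul_apply] at h1
          have h2 := pr_mem ρ (jf f') 0 (w : V) ⟨x, hx'⟩
          rw [AddChar.zero_apply, one_smul] at h2
          refine h1.trans ?_
          rw [jf_apply] at h2
          rw [h2]; rfl
      have hmem2 : pr (sg ρ W) (jW W f hf) 0 (pr (sg ρ W) (jW W f' hf') 0 (w : V)) ∈ C.toSubmodule := by
        rw [← coe_pr_sub, ← coe_pr_sub]
        exact Subtype.mem _
      have h3 := Submodule.mem_inf.mpr ⟨hmem, hmem2⟩
      rw [hC.inf_eq_bot, Submodule.mem_bot] at h3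
      exact h3
    rw [this, map_zero]
  have e3 := trace_mul_add (s2 ρ W) (jW W f hf) (jW W f' hf') 0 0 _ _ hN
  rw [fixS_trace] at e3
  rw [e2, add_zero, pr_sg, pr_sg] at e1
  refine e1.trans ?_
  exact e3

theorem exists_pair (hn : 2 ≤ Fintype.card ι) : ∃ f f' : ι → F, f ≠ 0 ∧ f' ≠ 0 ∧ f' ∉ Submodule.span F {f} ∧ f ∉ Submodule.span F {f'} := by
  obtain ⟨f, hf, -⟩ := exists_outside (F := F) hn (0 : ι → F) 0
  have hf0 : f ≠ 0 := by
    rintro rfl
    exact hf (Submodule.zero_mem _)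
  obtain ⟨f', hf', -⟩ := exists_outside (F := F) hn f f
  have hf'0 : f' ≠ 0 := by
    rintro rfl
    exact hf' (Submodule.zero_mem _)
  exact ⟨f, f', hf0, hf'0, hf', not_mem_span_symm hf0 hf'⟩

theorem finrank_span_two {f f' : ι → F} (hf : f ≠ 0) (hf' : f' ∉ Submodule.span F {f}) :
    finrank F (Submodule.span F {f, f'}) = 2 := by
  have h1 : finrank F (Submodule.span F {f}) = 1 := finrank_span_singleton hf
  have h2 : Submodule.span F {f} < Submodule.span F {f, f'} := by
    refine lt_of_le_of_ne (Submodule.span_mono (by simp)) fun h => hf' ?_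
    rw [h]; exact Submodule.subset_span (by simp)
  have h3 := Submodule.finrank_lt_finrank_of_lt h2
  have h4 := finrank_span_pair_le (F := F) f f'
  omega

theorem span_eq_of {f f' y y' : ι → F} {W : Submodule F (ι → F)} (hW : W = Submodule.span F {f, f'})
    (hy : y ∈ W) (hy' : y' ∈ W) (hy0 : y ≠ 0) (hyy' : y' ∉ Submodule.span F {y}) : W = Submodule.span F {y, y'} := by
  symm
  apply Submodule.eq_of_le_of_finrank_le
  · rw [Submodule.span_le]
    intro z hz
    rcases hz with rfl | hz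
    · exact hy
    · rw [Set.mem_singleton_iff] at hz; subst hz; exact hy'
  · rw [finrank_span_two hy0 hyy', hW]
    exact finrank_span_pair_le f f'

theorem exists_other {f f' y : ι → F} {W : Submodule F (ι → F)} (hW : W = Submodule.span F {f, f'}) (hf : f ≠ 0)
    (hf' : f' ∉ Submodule.span F {f}) : ∃ y' ∈ W, y' ∉ Submodule.span F {y} := by
  by_contra hcon
  push Not at hcon
  have h1 : W ≤ Submodule.span F {y} := hcon
  have h2 := Submodule.finrank_mono h1
  rw [hW, finrank_span_two hf hf'] at h2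
  have h3 := finrank_span_le_card (R := F) ({y} : Set (ι → F))
  rw [Set.toFinset_singleton, Finset.card_singleton] at h3
  omega

theorem irred_sg_top (hirr : ρ.IsIrreducible) : (sg ρ (⊤ : Submodule F (ι → F))).IsIrreducible := by
  have hmem : ∀ g : SpecialLinearGroup ι F, g ∈ PW (⊤ : Submodule F (ι → F)) := fun g y _ => ⟨trivial, trivial⟩
  have hntV : Nontrivial V := CfsgLib.CharBasic.irr_nontrivial ρ
  have hnt : Nontrivial (Subrepresentation (sg ρ (⊤ : Submodule F (ι → F)))) := by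
    refine ⟨⊥, ⊤, fun h1 => ?_⟩
    obtain ⟨v, hv⟩ := exists_ne (0 : V)
    have h4 : ∀ v, v ∈ (⊤ : Subrepresentation (sg ρ (⊤ : Submodule F (ι → F)))) := fun _ => trivial
    rw [← h1] at h4
    have h5 : ∀ v : V, v = 0 := h4
    exact hv (h5 v)
  refine ⟨fun S => ?_⟩
  let S' : Subrepresentation ρ := ⟨S.toSubmodule, fun g v hv => S.apply_mem_toSubmodule ⟨g, hmem g⟩ hv⟩
  rcases hirr.eq_bot_or_eq_top S' with h | h
  · left
    apply Subrepresentation.toSubmodule_injective
    exact congrArg (fun T : Subrepresentation ρ => T.toSubmodule) h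
  · right
    apply Subrepresentation.toSubmodule_injective
    exact congrArg (fun T : Subrepresentation ρ => T.toSubmodule) h

theorem main_bound (hn : 3 ≤ Fintype.card ι) (hgood : Good ι F) (h1 : One ρ) (hirr : ρ.IsIrreducible) :
    Nat.card F ^ Fintype.card ι ≤ (Nat.card F - 1) * finrank ℂ V + Nat.card F := by
  classical
  obtain ⟨f, f', hf0, hf'0, hf'f, hff'⟩ := exists_pair (ι := ι) (F := F) (by omega)
  set W : Submodule F (ι → F) := Submodule.span F {f, f'} with hW
  have hf : f ∈ W := Submodule.subset_span (by simp)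
  have hf' : f' ∈ W := Submodule.subset_span (by simp)
  set S := Nat.card (K f ⊓ K f' : AddSubgroup (ι → F)) with hS
  set q := Nat.card F with hq
  have hSq : S * q = Nat.card (K f) := card_K2 hf'f
  have hSqq : S * q * q = q ^ Fintype.card ι := by rw [hSq]; exact card_K hf0
  set c := finrank ℂ (wt ρ (jf f) 0) with hc
  -- dimension
  have hd : (finrank ℂ V : ℂ) = (c : ℂ) + S * q - 1 := by
    rw [dim_eq h1 hf0, ← hSq]; push_cast; ring
  -- the space N
  obtain ⟨N, hN⟩ := CfsgLib.CharBasic.exists_compl (s2 ρ W) (fixS W (s2 ρ W))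
  set v := finrank ℂ (fixS W (s2 ρ W)).toSubmodule with hv
  -- weights for all members of the pencil
  have hp : ∀ (y : ι → F) (hy : y ∈ W), y ≠ 0 → finrank ℂ (wt (s2 ρ W) (jW W y hy) 0) + S = c + 1 := by
    intro y hy hy0
    obtain ⟨y', hy', hyy'⟩ := exists_other (y := y) hW hf0 hf'f
    have hWy := span_eq_of hW hy hy' hy0 hyy'
    have e1 := finrank_s2_zero (ρ := ρ) hWy hy
    have e2 := p_eq ρ hn hgood h1 hy0 hyy'
    have e3 : Nat.card (K y ⊓ K y' : AddSubgroup (ι → F)) = S := by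
      have h2 := card_K2 hyy'
      have h3 := card_K hy0
      rw [← h2] at h3
      rw [← hq, ← hSqq] at h3
      have hqpos : 0 < q := Nat.card_pos
      exact Nat.eq_of_mul_eq_mul_right hqpos (Nat.eq_of_mul_eq_mul_right hqpos h3)
    rw [e3, c_const h1 hy0 hf0] at e2
    rw [e1]
    exact e2
  have hNk : ∀ (y : ι → F) (hy : y ∈ W), y ≠ 0 → finrank ℂ (wt N.toRepresentation (jW W y hy) 0) + v + S = c + 1 := by
    intro y hy hy0
    have e1 := finrank_wt_add (s2 ρ W) (jW W y hy) _ _ hN 0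
    rw [fixS_zero] at e1
    have e2 := hp y hy hy0
    omega
  set k := finrank ℂ (wt N.toRepresentation (jW W f hf) 0) with hk
  have hk1 := hNk f hf hf0
  have hNone : ∀ χ : AddChar (K f) ℂ, χ ≠ 0 → (∀ x ∈ kk f f', χ x = 1) → finrank ℂ (wt N.toRepresentation (jW W f hf) χ) = 1 := by
    intro χ hχ hχ2
    have e1 := finrank_wt_add (s2 ρ W) (jW W f hf) _ _ hN χ
    rw [fixS_ne (s2 ρ W) hf hχ, finrank_s2_one hgood h1 hW hf hf0 hχ hχ2] at e1
    omega
  have hNnone : ∀ χ : AddChar (K f) ℂ, ¬ (∀ x ∈ kk f f', χ x = 1) → finrank ℂ (wt N.toRepresentation (jW W f hf) χ) = 0 := by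
    intro χ hχ2
    have e1 := finrank_wt_add (s2 ρ W) (jW W f hf) _ _ hN χ
    rw [finrank_s2_none hW hf hχ2] at e1
    omega
  have hNdim := finrank_of_chars hf hf'f N.toRepresentation hNone hNnone
  rw [← hq, ← hk] at hNdim
  have hq2 : 2 ≤ q := Finite.one_lt_card
  have hNnt : Nontrivial N.toSubmodule := by
    apply Module.nontrivial_of_finrank_pos (R := ℂ)
    omega
  have hNfix : (fixS W N.toRepresentation).toSubmodule = ⊥ := by
    rw [eq_bot_iff]
    intro w hw
    rw [Submodule.mem_bot]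
    have h2 : ((w : N.toSubmodule) : (fix2 W (sg ρ W)).toSubmodule) ∈ (fixS W (s2 ρ W)).toSubmodule := by
      rw [mem_fixS]
      intro y hy x
      exact congrArg Subtype.val (mem_fixS.mp hw y hy x)
    have h3 := Submodule.mem_inf.mpr ⟨h2, w.2⟩
    rw [hN.inf_eq_bot, Submodule.mem_bot] at h3
    exact Subtype.ext h3
  have hNirr := irred_N hn hW hf hff' hf'f N.toRepresentation hNfix hNone hNnone
  set T₀ := LinearMap.trace ℂ V (ef ρ f * ef ρ f') with hT
  have hNt : ∀ (y y' : ι → F) (hy : y ∈ W) (hy' : y' ∈ W), y ≠ 0 → y' ∉ Submodule.span F {y} →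
      LinearMap.trace ℂ N.toSubmodule (pr N.toRepresentation (jW W y hy) 0 * pr N.toRepresentation (jW W y' hy') 0) = T₀ - v := by
    intro y y' hy hy' hy0 hyy'
    have e1 := T_split (ρ := ρ) (span_eq_of hW hy hy' hy0 hyy') hy hy' N hN
    rw [T_const ρ (by omega) hy0 hf0 hyy' hf'f] at e1
    rw [← hT] at e1
    rw [e1]; ring
  have I2 := lemmaW N.toRepresentation hNirr (k : ℂ) (T₀ - v) hf hf0 (fun y hy hy0 => by
    have h2 := hNk y hy hy0
    have h3 : finrank ℂ (wt N.toRepresentation (jW W y hy) 0) = k := by omega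
    rw [h3]) hNt
  have I1 := lemmaW (sg ρ (⊤ : Submodule F (ι → F))) (irred_sg_top hirr) (c : ℂ) T₀ (y₀ := f) trivial hf0 (fun y hy hy0 => by
    rw [wt_sg, c_const h1 hy0 hf0]) (fun y y' hy hy' hy0 hyy' => by
    rw [pr_sg, pr_sg]
    exact T_const ρ (by omega) hy0 hf0 hyy' hf'f)
  have hWcard : Nat.card W = q ^ 2 := by
    rw [Module.natCard_eq_pow_finrank (K := F), finrank_span_two hf0 hf'f]
  have hTcard : Nat.card (⊤ : Submodule F (ι → F)) = S * q * q := by
    rw [Module.natCard_eq_pow_finrank (K := F), finrank_top, Module.finrank_fintype_fun_eq_card, hSqq]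
  rw [hTcard, hd] at I1
  rw [hWcard] at I2
  have hNdim' : (finrank ℂ N.toSubmodule : ℂ) = (k : ℂ) + q - 1 := by
    have : ((finrank ℂ N.toSubmodule + 1 : ℕ) : ℂ) = ((k + q : ℕ) : ℂ) := by rw [hNdim]
    push_cast at this
    linear_combination this
  rw [hNdim'] at I2
  have hvk : (v : ℂ) = c + 1 - S - k := by
    have : ((k + v + S : ℕ) : ℂ) = ((c + 1 : ℕ) : ℂ) := by rw [hk1]
    push_cast at this
    linear_combination this
  push_cast at I1 I2
  -- eliminate
  have hq1 : (q : ℂ) - 1 ≠ 0 := by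
    have : ((q : ℂ)) ≠ 1 := by exact_mod_cast (by omega : q ≠ 1)
    exact sub_ne_zero.mpr this
  have hSq1 : (S : ℂ) * q - 1 ≠ 0 := by
    have h5 : 1 ≤ S := Nat.card_pos
    have h6 : S * q ≠ 1 := by nlinarith
    have : ((S : ℂ) * q) ≠ 1 := by exact_mod_cast h6
    exact sub_ne_zero.mpr this
  have J1 : ((S : ℂ) * q ^ 2 - 1) * c = q * (c - T₀) * (c + S * q - 1) := by
    apply mul_left_cancel₀ hSq1
    linear_combination -I1
  have J2 : ((q : ℂ) + 1) * k ^ 2 = (k + q - 1) * (k + q * (T₀ - v)) := by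
    apply mul_left_cancel₀ hq1
    linear_combination I2
  have J : ((S : ℂ) * q ^ 2 - 1) * c * (k + q - 1) = (q * (S - 1) * (q - 1 + k) + k * (q ^ 2 - 1)) * (c + S * q - 1) := by
    rw [J1]
    rw [hvk] at J2
    linear_combination (c + S * q - 1) * J2
  have J' : ((S : ℤ) * q ^ 2 - 1) * c * (k + q - 1) = (q * (S - 1) * (q - 1 + k) + k * (q ^ 2 - 1)) * (c + S * q - 1) := by
    have := J
    exact_mod_cast this
  have hd' : (finrank ℂ V : ℤ) = c + S * q - 1 := by exact_mod_cast hd
  have hS3 : 3 ≤ S := by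
    have hqp : 0 < q := by omega
    have h7 : S * q * q = q ^ (Fintype.card ι - 2) * q * q := by
      rw [hSqq, ← pow_succ, ← pow_succ]
      congr 1; omega
    have h8 : S = q ^ (Fintype.card ι - 2) := Nat.eq_of_mul_eq_mul_right hqp (Nat.eq_of_mul_eq_mul_right hqp h7)
    rw [h8]
    rcases hgood with h5 | ⟨h4, h6⟩ | ⟨h3, h6, h9⟩
    · calc 3 ≤ 2 ^ 3 := by norm_num
        _ ≤ q ^ 3 := Nat.pow_le_pow_left hq2 3
        _ ≤ q ^ (Fintype.card ι - 2) := Nat.pow_le_pow_right hqp (by omega)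
    · rw [h4]
      have : 2 ^ 2 ≤ q ^ 2 := Nat.pow_le_pow_left hq2 2
      change 3 ≤ q ^ 2
      omega
    · rw [h3]
      have : 3 ≤ q := by
        have h10 : q ≠ 2 := h6
        omega
      simpa using this
  have key := numeric (c := c) (d := finrank ℂ V) (q := q) (S := S) (k := k) (by exact_mod_cast hq2) (by exact_mod_cast hS3)
    (Int.natCast_nonneg _) (Int.natCast_nonneg _) hd' J'
  have hfin : ((q ^ Fintype.card ι : ℕ) : ℤ) ≤ (((q - 1) * finrank ℂ V + q : ℕ) : ℤ) := by
    rw [← hSqq]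
    push_cast [Nat.cast_sub (by omega : 1 ≤ q)]
    linarith
  exact_mod_cast hfin

end CfsgLib.SLw
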