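import Cfsg.Agent.LibSLw12
import Cfsg.Agent.LibWt6
import Cfsg.Agent.LibKS3
import Cfsg.Agent.S0157

/-! the minimal degree of `SL` (helper26) -/
set_option autoImplicit false
set_option linter.unusedSectionVars false

namespace CfsgLib.SLw

open Matrix Module CfsgLib.Wt CfsgLib.WtQ CfsgLib.WtSp

variable {F : Type*} [Field F] [Fintype F]

theorem tv_not_center {n : ℕ} {x f : Fin n → F} (h : f ⬝ᵥ x = 0) (hx : x ≠ 0) (hf : f ≠ 0) :
    tv x f h ∉ Subgroup.center (SpecialLinearGroup (Fin n) F) := by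
  intro hc
  rw [Matrix.SpecialLinearGroup.mem_center_iff] at hc
  obtain ⟨r, -, hr⟩ := hc
  -- apply to a vector outside the hyperplane and to x
  obtain ⟨u, -, hu⟩ := exists_vec (⊥ : Submodule F (Fin n → F)) (b := f) (by rwa [Submodule.mem_bot])
  have e1 : (tv x f h : Matrix (Fin n) (Fin n) F) *ᵥ x = r • x := by
    rw [← hr, Matrix.scalar_apply, ← Matrix.smul_one_eq_diagonal, smul_mulVec, one_mulVec]
  have e2 : (tv x f h : Matrix (Fin n) (Fin n) F) *ᵥ u = r • u := by
    rw [← hr, Matrix.scalar_apply, ← Matrix.smul_one_eq_diagonal, smul_mulVec, one_mulVec]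
  rw [tv_mulVec, h, zero_smul, add_zero] at e1
  have hr1 : r = 1 := by
    have : (r - 1) • x = 0 := by rw [sub_smul, one_smul, ← e1, sub_self]
    exact sub_eq_zero.mp ((smul_eq_zero.mp this).resolve_right hx)
  rw [tv_mulVec, hu, hr1, one_smul, one_smul, add_eq_left] at e2
  exact hx e2

theorem sl_bound {n : ℕ} (hn : 3 ≤ n) (hgood : Good (Fin n) F)
    {V : Type*} [AddCommGroup V] [Module ℂ V] [FiniteDimensional ℂ V]
    (ρ : Representation ℂ (SpecialLinearGroup (Fin n) F) V) (hirr : ρ.IsIrreducible) (h2 : 2 ≤ finrank ℂ V) :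
    Fintype.card F ^ n ≤ (Fintype.card F - 1) * finrank ℂ V + Fintype.card F := by
  classical
  by_contra hcon
  push Not at hcon
  have hquasi : Cfsg.IsQuasisimple (SpecialLinearGroup (Fin n) F) :=
    CfsgLib.KS3.isQuasisimple_SL n (by omega) (fun h => by omega)
  have hq2 : 2 ≤ Fintype.card F := Fintype.one_lt_card
  have hone : One ρ := by
    intro f hf χ hχ
    have hcard := card_K hf
    rw [Nat.card_eq_fintype_card (α := F), Fintype.card_fin] at hcard
    -- the common character value
    obtain ⟨x₀, hx₀, hx₀2⟩ := exists_kill (Submodule.span F {f}) (by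
      have h3 := finrank_span_le_card (R := F) ({f} : Set (Fin n → F))
      rw [Set.toFinset_singleton, Finset.card_singleton] at h3
      simp only [Fintype.card_fin]
      omega) (0 : Fin n → F)
    have hx₀0 : x₀ ≠ 0 := by
      rintro rfl
      exact hx₀ (Submodule.zero_mem _)
    have hfx₀ : f ⬝ᵥ x₀ = 0 := hx₀2 f (Submodule.mem_span_singleton_self _)
    have hconst : ∀ m : K f, m ≠ 0 → ρ.character (jf f (Multiplicative.ofAdd m)) = ρ.character (tv x₀ f hfx₀) := by
      intro m hm
      rw [jf_apply]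
      exact char_tv (θ := ρ.character) (fun g t => Representation.char_conj ρ t g) (by simpa using hn) m.2 hfx₀
        (fun h => hm (Subtype.ext h)) hf hx₀0 hf
    have hall : ∀ χ' : AddChar (K f) ℂ, χ' ≠ 0 → finrank ℂ (wt ρ (jf f) χ') = finrank ℂ (wt ρ (jf f) χ) := by
      intro χ' hχ'
      have e1 := finrank_of_const ρ (jf f) hconst hχ
      have e2 := finrank_of_const ρ (jf f) hconst hχ'
      rw [← e1] at e2
      have hc : (Fintype.card (K f) : ℂ) ≠ 0 := Nat.cast_ne_zero.mpr Fintype.card_ne_zero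
      exact_mod_cast mul_left_cancel₀ hc e2
    have hne : finrank ℂ (wt ρ (jf f) χ) ≠ 0 := by
      intro h0
      refine rep_ne_one hquasi ρ hirr h2 (tv_not_center hfx₀ hx₀0 hf) ?_
      refine apply_eq_of_forall ρ (jf f) (⟨x₀, hfx₀⟩ : K f) fun χ' hχ' => ?_
      by_cases h : χ' = 0
      · rw [h, AddChar.zero_apply]
      · exfalso
        apply hχ'
        rw [← Submodule.finrank_eq_zero (R := ℂ), hall χ' h, h0]
    have hle : finrank ℂ (wt ρ (jf f) χ) ≤ 1 := by
      by_contra hgt
      push Not at hgt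
      have h3 := mul_card_le ρ (jf f) (Finset.univ.erase (0 : AddChar (K f) ℂ)) 2 (fun χ' hχ' => by
        rw [hall χ' (Finset.ne_of_mem_erase hχ')]; omega)
      rw [Finset.card_erase_of_mem (Finset.mem_univ _), Finset.card_univ, AddChar.card_eq, ← Nat.card_eq_fintype_card] at h3
      -- 2 (Q - 1) ≤ d
      set Q := Nat.card (K f) with hQ
      have hQ1 : 1 ≤ Q := Nat.card_pos
      rw [← hcard] at hcon
      obtain ⟨q', hq'⟩ := Nat.exists_eq_add_of_le hq2
      rw [hq'] at hcon
      obtain ⟨Q', hQ'⟩ := Nat.exists_eq_add_of_le hQ1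
      rw [hQ'] at hcon h3
      rw [show 2 + q' - 1 = q' + 1 by omega] at hcon
      rw [show 1 + Q' - 1 = Q' by omega] at h3
      have h4 : (q' + 1) * (2 * Q') ≤ (q' + 1) * finrank ℂ V := Nat.mul_le_mul_left _ h3
      nlinarith
    omega
  have h3 := main_bound (ι := Fin n) (by simpa using hn) hgood hone hirr
  rw [Nat.card_eq_fintype_card, Fintype.card_fin] at h3
  omega

end CfsgLib.SLw
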