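import Cfsg.Agent.LibSLw2

/-! one dimensional weight spaces: triviality of transvections (helper26) -/
set_option autoImplicit false
set_option linter.unusedSectionVars false

namespace CfsgLib.SLw

open Matrix Module CfsgLib.Wt CfsgLib.WtQ CfsgLib.WtSp

variable {ι : Type} [Fintype ι] [DecidableEq ι] {F : Type*} [Field F] [Finite F] {ψ : AddChar F ℂ}
variable {V : Type*} [AddCommGroup V] [Module ℂ V] (ρ : Representation ℂ (SpecialLinearGroup ι F) V)

theorem tv_apply_congr {x x' f f' : ι → F} (h : f ⬝ᵥ x = 0) (h' : f' ⬝ᵥ x' = 0) (he : vecMulVec x f = vecMulVec x' f') :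
    ρ (tv x f h) = ρ (tv x' f' h') := by rw [tv_congr h h' he]

theorem tv_mul_right (a b b' : ι → F) (h : b ⬝ᵥ a = 0) (h' : b' ⬝ᵥ a = 0) :
    tv a b h * tv a b' h' = tv a (b + b') (by rw [add_dotProduct, h, h', add_zero]) := by
  apply Subtype.ext
  rw [Matrix.SpecialLinearGroup.coe_mul, tv_val, tv_val, tv_val, Matrix.mul_add, Matrix.mul_one, Matrix.add_mul, Matrix.one_mul,
    vecMulVec_mul_vecMulVec, h, zero_smul, vecMulVec_zero, add_zero, vecMulVec_add, add_assoc]

theorem tv_mul_left (a a' b : ι → F) (h : b ⬝ᵥ a = 0) (h' : b ⬝ᵥ a' = 0) :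
    tv a b h * tv a' b h' = tv (a + a') b (by rw [dotProduct_add, h, h', add_zero]) := by
  apply Subtype.ext
  rw [Matrix.SpecialLinearGroup.coe_mul, tv_val, tv_val, tv_val, Matrix.mul_add, Matrix.mul_one, Matrix.add_mul, Matrix.one_mul,
    vecMulVec_mul_vecMulVec, h', zero_smul, vecMulVec_zero, add_zero, add_vecMulVec, add_assoc]

/-- the torus element for the second case -/
theorem exists_torus2 {a b a' b'' : ι → F} (h1 : b'' ⬝ᵥ a = 1) (h2 : b'' ⬝ᵥ a' = 0) (h3 : b ⬝ᵥ a = 0) (h4 : b ⬝ᵥ a' = 1) {α : F}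
    (hα : α ≠ 0) : ∃ g : SpecialLinearGroup ι F, (∀ w : ι → F, w ⬝ᵥ a = 0 → w ⬝ᵥ a' = 0 →
      w ᵥ* (g : Matrix ι ι F) = w ∧ w ᵥ* ((g⁻¹ : SpecialLinearGroup ι F) : Matrix ι ι F) = w) ∧
      (g : Matrix ι ι F) *ᵥ a = α • a ∧ b ᵥ* ((g⁻¹ : SpecialLinearGroup ι F) : Matrix ι ι F) = α • b := by
  set A : Matrix ι ι F := (1 + vecMulVec ((α - 1) • a) b'') * (1 + vecMulVec ((α⁻¹ - 1) • a') b) with hA
  have hdet : A.det = 1 := by
    rw [hA, det_mul, det_T, det_T, dotProduct_smul, dotProduct_smul, h1, h4, smul_eq_mul, smul_eq_mul]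
    field_simp
    ring
  have hb'' : ∀ w : ι → F, w ᵥ* A = w + ((α - 1) * (w ⬝ᵥ a)) • b'' + ((α⁻¹ - 1) * (w ⬝ᵥ a')) • b := by
    intro w
    rw [hA, ← vecMul_vecMul, vecMul_add, vecMul_one, vecMul_vecMulVec, vecMul_add, vecMul_one, vecMul_vecMulVec,
      dotProduct_smul, dotProduct_smul, add_dotProduct, smul_dotProduct, h2, smul_zero, add_zero, smul_eq_mul, smul_eq_mul]
  let g : SpecialLinearGroup ι F := ⟨A, hdet⟩
  have hg : (g : Matrix ι ι F) = A := rfl
  have hinv : ∀ (w u : ι → F), w ᵥ* (g : Matrix ι ι F) = u → u ᵥ* ((g⁻¹ : SpecialLinearGroup ι F) : Matrix ι ι F) = w := by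
    intro w u h
    rw [← h, vecMul_vecMul, ← Matrix.SpecialLinearGroup.coe_mul, mul_inv_cancel, Matrix.SpecialLinearGroup.coe_one, vecMul_one]
  refine ⟨g, fun w hw hw' => ?_, ?_, ?_⟩
  · have : w ᵥ* (g : Matrix ι ι F) = w := by
      rw [hg, hb'', hw, hw', mul_zero, mul_zero, zero_smul, zero_smul, add_zero, add_zero]
    exact ⟨this, hinv w w this⟩
  · have e : (1 + vecMulVec ((α⁻¹ - 1) • a') b) *ᵥ a = a := by
      rw [add_mulVec, one_mulVec, vecMulVec_mulVec, h3, op_smul_eq_smul, zero_smul, add_zero]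
    rw [hg, hA, ← mulVec_mulVec, e, add_mulVec, one_mulVec, vecMulVec_mulVec, h1, op_smul_eq_smul, one_smul, sub_smul, one_smul]
    abel
  · have h5 : b ᵥ* (g : Matrix ι ι F) = α⁻¹ • b := by
      rw [hg, hb'', h3, h4, mul_zero, zero_smul, add_zero, mul_one, sub_smul, one_smul]
      abel
    have h6 := hinv _ _ h5
    rw [smul_vecMul] at h6
    have h7 := congrArg (α • ·) h6
    simp only [smul_smul, mul_inv_cancel₀ hα, one_smul] at h7
    exact h7

theorem F2b {f r : ι → F} {χ : AddChar (K f) ℂ} (hr : ∀ x : K f, χ x = ψ (r ⬝ᵥ (x : ι → F)))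
    (h1 : finrank ℂ (wt ρ (jf f) χ) = 1) {a b : ι → F} (ha : a ≠ 0) (hab : b ⬝ᵥ a = 0) (hfa : f ⬝ᵥ a = 0) (hra : r ⬝ᵥ a = 0)
    (hb : b ∉ Submodule.span F {f, r}) {α : F} (hα : α ≠ 0) (hα2 : α ^ 2 ≠ 1) {v : V}
    (hv : v ∈ wt ρ (jf f) χ) : ρ (tv a b hab) v = v := by
  obtain ⟨a', ha', hba'⟩ := exists_vec _ hb
  have hfa' : f ⬝ᵥ a' = 0 := ha' f (Submodule.subset_span (by simp))
  have hra' : r ⬝ᵥ a' = 0 := ha' r (Submodule.subset_span (by simp))
  have ha'' : a ∉ Submodule.span F {a'} := by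
    intro h
    obtain ⟨c, rfl⟩ := Submodule.mem_span_singleton.mp h
    rw [dotProduct_smul, hba', smul_eq_mul, mul_one] at hab
    rw [hab, zero_smul] at ha
    exact ha rfl
  obtain ⟨b'', hb'', hb''2⟩ := exists_vec _ ha''
  have h3 : b'' ⬝ᵥ a' = 0 := by
    rw [dotProduct_comm]; exact hb'' a' (Submodule.mem_span_singleton_self _)
  rw [dotProduct_comm] at hb''2
  obtain ⟨g, hg1, hg2, hg3⟩ := exists_torus2 hb''2 h3 hab hba' hα
  have hα1 : α ^ 2 - 1 ≠ 0 := sub_ne_zero.mpr hα2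
  set s : F := (α ^ 2 - 1)⁻¹ with hs
  have hsb : (s • b) ⬝ᵥ a = 0 := by rw [smul_dotProduct, hab, smul_zero]
  refine comm_trivial ρ (jf f) χ h1 (g₁ := g) (g₂ := tv a (s • b) hsb) (t := tv a b hab) ?_ (fun v hv => ?_)
    (fun v hv => stab_tv ρ hr a (s • b) hsb hfa hra hv) hv
  · have e1 := tv_conj g a (s • b) hsb
    rw [← mul_inv_eq_iff_eq_mul, _root_.mul_inv_rev, ← mul_assoc, e1]
    rw [tv_inv]
    apply Subtype.ext
    rw [Matrix.SpecialLinearGroup.coe_mul, tv_val, tv_val, tv_val, hg2, smul_vecMul, hg3, Matrix.mul_add, Matrix.mul_one,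
      Matrix.add_mul, Matrix.one_mul, vecMulVec_mul_vecMulVec, dotProduct_neg, smul_dotProduct, smul_dotProduct, hab, smul_zero,
      smul_zero, neg_zero, zero_smul, vecMulVec_zero, add_zero, smul_smul, vecMulVec_smul, smul_vecMulVec, smul_smul,
      neg_vecMulVec, vecMulVec_smul, add_assoc, ← sub_eq_add_neg, ← sub_smul]
    congr 2
    have : s * α * α - s = 1 := by
      have : s * (α ^ 2 - 1) = 1 := inv_mul_cancel₀ hα1
      linear_combination this
    rw [this, one_smul]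
  · refine stab_row ρ hr g 1 ?_ ?_ one_ne_zero hv
    · rw [one_smul]; exact (hg1 f hfa hfa').1
    · rw [inv_one, one_smul]; exact (hg1 r hra hra').2

/-- the torus element for the third case -/
theorem exists_torus3 (h3 : Fintype.card ι = 3) {a b'' : ι → F} (h1 : b'' ⬝ᵥ a = 1) {γ : F} (hγ : γ ≠ 0) :
    ∃ g : SpecialLinearGroup ι F, (∀ w : ι → F, w ⬝ᵥ a = 0 →
      w ᵥ* (g : Matrix ι ι F) = γ⁻¹ • w ∧ w ᵥ* ((g⁻¹ : SpecialLinearGroup ι F) : Matrix ι ι F) = γ • w) ∧
      (g : Matrix ι ι F) *ᵥ a = γ ^ 2 • a := by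
  set A : Matrix ι ι F := γ⁻¹ • (1 + vecMulVec ((γ ^ 3 - 1) • a) b'') with hA
  have hdet : A.det = 1 := by
    rw [hA, det_smul, h3, det_T, dotProduct_smul, h1, smul_eq_mul]
    field_simp
    ring
  let g : SpecialLinearGroup ι F := ⟨A, hdet⟩
  have hg : (g : Matrix ι ι F) = A := rfl
  refine ⟨g, fun w hw => ?_, ?_⟩
  · have h5 : w ᵥ* (g : Matrix ι ι F) = γ⁻¹ • w := by
      rw [hg, hA, vecMul_smul, vecMul_add, vecMul_one, vecMul_vecMulVec, dotProduct_smul, hw, smul_zero, zero_smul, add_zero]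
    refine ⟨h5, ?_⟩
    have h6 : (w ᵥ* (g : Matrix ι ι F)) ᵥ* ((g⁻¹ : SpecialLinearGroup ι F) : Matrix ι ι F) = w := by
      rw [vecMul_vecMul, ← Matrix.SpecialLinearGroup.coe_mul, mul_inv_cancel, Matrix.SpecialLinearGroup.coe_one, vecMul_one]
    rw [h5, smul_vecMul] at h6
    conv_rhs => rw [← h6, smul_smul, mul_inv_cancel₀ hγ, one_smul]
  · rw [hg, hA, smul_mulVec, add_mulVec, one_mulVec, vecMulVec_mulVec, h1, op_smul_eq_smul, one_smul, sub_smul, one_smul,
      add_sub_cancel, smul_smul]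
    congr 1
    field_simp

theorem F2c (h3 : Fintype.card ι = 3) {f r : ι → F} {χ : AddChar (K f) ℂ} (hr : ∀ x : K f, χ x = ψ (r ⬝ᵥ (x : ι → F)))
    (h1 : finrank ℂ (wt ρ (jf f) χ) = 1) {a b : ι → F} (ha : a ≠ 0) (hab : b ⬝ᵥ a = 0) (hfa : f ⬝ᵥ a = 0) (hra : r ⬝ᵥ a = 0)
    (hb : b ∈ Submodule.span F {f, r}) {γ : F} (hγ : γ ≠ 0) (hγ3 : γ ^ 3 ≠ 1) {v : V}
    (hv : v ∈ wt ρ (jf f) χ) : ρ (tv a b hab) v = v := by
  obtain ⟨c, d, rfl⟩ := Submodule.mem_span_pair.mp hb
  have h1f : (c • f) ⬝ᵥ a = 0 := by rw [smul_dotProduct, hfa, smul_zero]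
  have h1r : (d • r) ⬝ᵥ a = 0 := by rw [smul_dotProduct, hra, smul_zero]
  have e0 : tv a (c • f + d • r) hab = tv a (c • f) h1f * tv a (d • r) h1r := (tv_mul_right _ _ _ _ _).symm
  have e1 : ρ (tv a (d • r) h1r) v = v := by
    obtain ⟨b'', hb'', hb''2⟩ := exists_vec (⊥ : Submodule F (ι → F)) (b := a) (by rwa [Submodule.mem_bot])
    rw [dotProduct_comm] at hb''2
    obtain ⟨g, hg1, hg2⟩ := exists_torus3 h3 hb''2 hγ
    have hα1 : γ ^ 3 - 1 ≠ 0 := sub_ne_zero.mpr hγ3
    set s : F := d * (γ ^ 3 - 1)⁻¹ with hs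
    have hsb : (s • r) ⬝ᵥ a = 0 := by rw [smul_dotProduct, hra, smul_zero]
    refine comm_trivial ρ (jf f) χ h1 (g₁ := g) (g₂ := tv a (s • r) hsb) (t := tv a (d • r) h1r) ?_ (fun v hv => ?_)
      (fun v hv => stab_tv ρ hr a (s • r) hsb hfa hra hv) hv
    · have e1 := tv_conj g a (s • r) hsb
      rw [← mul_inv_eq_iff_eq_mul, _root_.mul_inv_rev, ← mul_assoc, e1]
      rw [tv_inv]
      apply Subtype.ext
      rw [Matrix.SpecialLinearGroup.coe_mul, tv_val, tv_val, tv_val, hg2, smul_vecMul, (hg1 r hra).2, Matrix.mul_add,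
        Matrix.mul_one, Matrix.add_mul, Matrix.one_mul, vecMulVec_mul_vecMulVec, dotProduct_neg, smul_dotProduct, smul_dotProduct,
        hra, smul_zero, smul_zero, neg_zero, zero_smul, vecMulVec_zero, add_zero, smul_smul, vecMulVec_smul, smul_vecMulVec,
        smul_smul, neg_vecMulVec, vecMulVec_smul, add_assoc, ← sub_eq_add_neg, ← sub_smul, vecMulVec_smul]
      congr 2
      have : s * (γ ^ 3 - 1) = d := by rw [hs, mul_assoc, inv_mul_cancel₀ hα1, mul_one]
      linear_combination this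
    · refine stab_row ρ hr g γ⁻¹ ?_ ?_ (inv_ne_zero hγ) hv
      · exact (hg1 f hfa).1
      · rw [inv_inv]; exact (hg1 r hra).2
  rw [e0, map_mul, Module.End.mul_apply, e1]
  have h2a : f ⬝ᵥ (c • a) = 0 := by rw [dotProduct_smul, hfa, smul_zero]
  have e2 : tv a (c • f) h1f = jf f (Multiplicative.ofAdd ⟨c • a, h2a⟩) := by
    rw [jf_apply]
    apply tv_congr
    rw [vecMulVec_smul, smul_vecMulVec]
  rw [e2, hv, hr]
  change ψ (r ⬝ᵥ (c • a)) • v = v
  rw [dotProduct_smul, hra, smul_zero, AddChar.map_zero_eq_one, one_smul]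

theorem exists_pow_ne {k : ℕ} (hk : 0 < k) (h : k + 1 < Nat.card F) : ∃ γ : F, γ ≠ 0 ∧ γ ^ k ≠ 1 := by
  classical
  cases nonempty_fintype F
  by_contra hcon
  push Not at hcon
  have h1 : (Polynomial.nthRoots k (1 : F)).toFinset = Finset.univ.erase 0 := by
    ext x
    rw [Multiset.mem_toFinset, Polynomial.mem_nthRoots hk, Finset.mem_erase]
    refine ⟨fun hx => ⟨?_, Finset.mem_univ _⟩, fun hx => hcon x hx.1⟩
    rintro rfl
    rw [zero_pow hk.ne'] at hx
    exact zero_ne_one hx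
  have h2 := Multiset.toFinset_card_le (Polynomial.nthRoots k (1 : F))
  have h3 := Polynomial.card_nthRoots k (1 : F)
  rw [h1, Finset.card_erase_of_mem (Finset.mem_univ _), Finset.card_univ, ← Nat.card_eq_fintype_card] at h2
  omega

theorem span_pair_eq (h3 : Fintype.card ι = 3) {f r a b : ι → F} (hf : f ≠ 0) (hr : r ∉ Submodule.span F {f}) (ha : a ≠ 0)
    (hfa : f ⬝ᵥ a = 0) (hra : r ⬝ᵥ a = 0) (hba : b ⬝ᵥ a = 0) : b ∈ Submodule.span F {f, r} := by
  by_contra hb
  have h1 : finrank F (Submodule.span F {f}) = 1 := finrank_span_singleton hf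
  have h2 : Submodule.span F {f} < Submodule.span F {f, r} := by
    refine lt_of_le_of_ne (Submodule.span_mono (by simp)) fun h => hr ?_
    rw [h]; exact Submodule.subset_span (by simp)
  have h4 : Submodule.span F {f, r} < Submodule.span F {f, r, b} := by
    refine lt_of_le_of_ne (Submodule.span_mono (by
      intro x hx
      rcases hx with rfl | hx
      · simp
      · rw [Set.mem_singleton_iff] at hx; subst hx; simp)) fun h => hb ?_
    rw [h]; exact Submodule.subset_span (by simp)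
  have h5 : Submodule.span F {f, r, b} < ⊤ := by
    rw [lt_top_iff_ne_top]
    intro htop
    obtain ⟨u, hu, hu2⟩ := exists_vec (⊥ : Submodule F (ι → F)) (b := a) (by rwa [Submodule.mem_bot])
    have h6 : u ∈ Submodule.span F {f, r, b} := by rw [htop]; trivial
    have h7 : ∀ w ∈ Submodule.span F {f, r, b}, w ⬝ᵥ a = 0 := by
      intro w hw
      refine Submodule.span_induction (p := fun w _ => w ⬝ᵥ a = 0) ?_ (zero_dotProduct a) ?_ ?_ hw
      · intro x hx
        rcases hx with rfl | rfl | hx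
        · exact hfa
        · exact hra
        · rw [Set.mem_singleton_iff] at hx; subst hx; exact hba
      · intro x y _ _ hx hy
        rw [add_dotProduct, hx, hy, add_zero]
      · intro c x _ hx
        rw [smul_dotProduct, hx, smul_zero]
    rw [dotProduct_comm, h7 u h6] at hu2
    exact zero_ne_one hu2
  have g1 := Submodule.finrank_lt_finrank_of_lt h2
  have g2 := Submodule.finrank_lt_finrank_of_lt h4
  have g3 := Submodule.finrank_lt_finrank_of_lt h5
  rw [finrank_top, Module.finrank_fintype_fun_eq_card, h3] at g3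
  omega

/-- transvections stabilising a weight act trivially -/
theorem F2 (hgood : Good ι F) {f : ι → F} (hf : f ≠ 0) {χ : AddChar (K f) ℂ} (hχ : χ ≠ 0)
    (h1 : finrank ℂ (wt ρ (jf f) χ) = 1) {a b : ι → F} (hab : b ⬝ᵥ a = 0) (hfa : f ⬝ᵥ a = 0)
    (hχa : ∀ t : F, χ ⟨t • a, by rw [mem_K, dotProduct_smul, hfa, smul_zero]⟩ = 1) {v : V}
    (hv : v ∈ wt ρ (jf f) χ) : ρ (tv a b hab) v = v := by
  by_cases ha : a = 0
  · subst ha
    have : tv (0 : ι → F) b hab = 1 := by
      apply Subtype.ext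
      rw [tv_val, zero_vecMulVec, add_zero]; rfl
    rw [this, map_one]; rfl
  obtain ⟨ψ, hψ⟩ := exists_psi F
  obtain ⟨r, hr⟩ := exists_row hψ hf χ
  have hra : r ⬝ᵥ a = 0 := by
    apply psi_inj hψ
    intro c
    rw [zero_mul, AddChar.map_zero_eq_one, ← hχa c, hr]
    change ψ (r ⬝ᵥ a * c) = ψ (r ⬝ᵥ (c • a))
    rw [dotProduct_smul, smul_eq_mul, mul_comm]
  have hrf : r ∉ Submodule.span F {f} := by
    intro h
    obtain ⟨c, rfl⟩ := Submodule.mem_span_singleton.mp h
    apply hχ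
    ext x
    rw [hr, smul_dotProduct, show f ⬝ᵥ (x : ι → F) = 0 from x.2, smul_zero, AddChar.map_zero_eq_one]
    rfl
  have case1 : 4 ≤ Fintype.card ι → b ∈ Submodule.span F {f, r} → ρ (tv a b hab) v = v := by
    intro h4 hb
    obtain ⟨a', ha', hall⟩ := exists_kill (Submodule.span F {f, r}) (by
      have := finrank_span_pair_le (F := F) f r
      omega) a
    exact F2a ρ hr h1 hab hfa hra ha' (hall f (Submodule.subset_span (by simp))) (hall r (Submodule.subset_span (by simp)))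
      (hall b hb) hv
  rcases hgood with h5 | ⟨h4, hq⟩ | ⟨h3, hq2, hq4⟩
  · obtain ⟨a', ha', hall⟩ := exists_kill (Submodule.span F {f, r, b}) (by
      have := finrank_span_triple_le (F := F) f r b
      omega) a
    exact F2a ρ hr h1 hab hfa hra ha' (hall f (Submodule.subset_span (by simp))) (hall r (Submodule.subset_span (by simp)))
      (hall b (Submodule.subset_span (by simp))) hv
  · by_cases hb : b ∈ Submodule.span F {f, r}
    · exact case1 h4.ge hb
    · obtain ⟨α, hα, hα2⟩ := exists_pow_ne (F := F) (k := 2) (by norm_num) hq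
      exact F2b ρ hr h1 ha hab hfa hra hb hα hα2 hv
  · have hb : b ∈ Submodule.span F {f, r} := span_pair_eq h3 hf hrf ha hfa hra hab
    have hγ : ∃ γ : F, γ ≠ 0 ∧ γ ^ 3 ≠ 1 := by
      rcases Nat.lt_or_ge 4 (Nat.card F) with h | h
      · exact exists_pow_ne (by norm_num) h
      · have h1' : 1 < Nat.card F := Finite.one_lt_card
        have h33 : Nat.card F = 3 := by omega
        refine ⟨-1, neg_ne_zero.mpr one_ne_zero, ?_⟩
        intro h6
        cases nonempty_fintype F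
        have hodd : Fintype.card F % 2 = 1 := by rw [← Nat.card_eq_fintype_card, h33]
        have h8 : ringChar F ≠ 2 := by
          intro h9
          have := FiniteField.even_card_of_char_two h9
          omega
        have h7 : (-1 : F) ^ 3 = -1 := by ring
        rw [h7] at h6
        exact Ring.neg_one_ne_one_of_char_ne_two h8 h6
    obtain ⟨γ, hγ0, hγ3⟩ := hγ
    exact F2c ρ h3 hr h1 ha hab hfa hra hb hγ0 hγ3 hv

end CfsgLib.SLw
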