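import Cfsg.Agent.LibSLw3
import Cfsg.Agent.LibSLw4

/-! characters on transvections, pairs of hyperplanes (helper26) -/
set_option autoImplicit false
set_option linter.unusedSectionVars false

namespace CfsgLib.SLw

open Matrix Module CfsgLib.Wt CfsgLib.WtQ CfsgLib.WtSp

variable {ι : Type} [Fintype ι] [DecidableEq ι] {F : Type*} [Field F] [Finite F]

theorem exists_outside (hn : 2 ≤ Fintype.card ι) (a b : ι → F) :
    ∃ h : ι → F, h ∉ Submodule.span F {a} ∧ h ∉ Submodule.span F {b} := by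
  have h1 : ∀ a : ι → F, ∃ h : ι → F, h ∉ Submodule.span F {a} := by
    intro a
    by_contra hcon
    push Not at hcon
    have h2 : (Submodule.span F {a} : Submodule F (ι → F)) = ⊤ := eq_top_iff.mpr fun x _ => hcon x
    have h3 := finrank_span_le_card (R := F) ({a} : Set (ι → F))
    rw [h2, finrank_top, Module.finrank_fintype_fun_eq_card, Set.toFinset_singleton, Finset.card_singleton] at h3
    omega
  obtain ⟨u, hu⟩ := h1 a
  by_cases hub : u ∈ Submodule.span F {b}
  · obtain ⟨w, hw⟩ := h1 b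
    by_cases hwa : w ∈ Submodule.span F {a}
    · refine ⟨u + w, fun h => hu ?_, fun h => hw ?_⟩
      · have := Submodule.sub_mem _ h hwa
        rwa [add_sub_cancel_right] at this
      · have := Submodule.sub_mem _ h hub
        rwa [add_sub_cancel_left] at this
    · exact ⟨w, hwa, hw⟩
  · exact ⟨u, hu, hub⟩

section moves

variable {θ : SpecialLinearGroup ι F → ℂ} (hθ : ∀ g t, θ (g * t * g⁻¹) = θ t)

include hθ

theorem theta_conj' (g t : SpecialLinearGroup ι F) : θ (g⁻¹ * t * g) = θ t := by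
  have := hθ g⁻¹ t
  rwa [inv_inv] at this

theorem move_f_aux {x f f' : ι → F} (h : f ⬝ᵥ x = 0) (h' : f' ⬝ᵥ x = 0) (hf : f ∉ Submodule.span F {f - f'}) :
    θ (tv x f h) = θ (tv x f' h') := by
  obtain ⟨u, hu, hfu⟩ := exists_vec _ hf
  have hyu : (f - f') ⬝ᵥ u = 0 := hu _ (Submodule.mem_span_singleton_self _)
  have hfu' : f' ⬝ᵥ u = 1 := by
    rw [sub_dotProduct, hfu, sub_eq_zero] at hyu
    exact hyu.symm
  have hyx : (f - f') ⬝ᵥ x = 0 := by rw [sub_dotProduct, h, h', sub_self]
  rw [← theta_conj' hθ (tv u (f - f') hyu) (tv x f' h'), tv_conj']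
  congr 1
  apply tv_congr
  rw [tv_inv, tv_mulVec, hyx, zero_smul, add_zero, vecMul_tv, hfu', one_smul, add_sub_cancel]

theorem move_f (hn : 3 ≤ Fintype.card ι) {x f f' : ι → F} (h : f ⬝ᵥ x = 0) (h' : f' ⬝ᵥ x = 0) (hf : f ≠ 0) (hf' : f' ≠ 0) :
    θ (tv x f h) = θ (tv x f' h') := by
  by_cases h1 : f' ∈ Submodule.span F {f}
  · obtain ⟨f'', hf'', hx''⟩ := exists_kill (Submodule.span F {x}) (by
      have h3 := finrank_span_le_card (R := F) ({x} : Set (ι → F))
      rw [Set.toFinset_singleton, Finset.card_singleton] at h3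
      omega) f
    have hx2 : f'' ⬝ᵥ x = 0 := by
      rw [dotProduct_comm]; exact hx'' x (Submodule.mem_span_singleton_self x)
    have hf''2 : f'' ∉ Submodule.span F {f'} := by
      intro h2
      obtain ⟨c, rfl⟩ := Submodule.mem_span_singleton.mp h1
      obtain ⟨d, rfl⟩ := Submodule.mem_span_singleton.mp h2
      apply hf''
      rw [smul_smul]
      exact Submodule.smul_mem _ _ (Submodule.mem_span_singleton_self f)
    have key : ∀ g g' : ι → F, g ≠ 0 → g' ∉ Submodule.span F {g} → g ∉ Submodule.span F {g - g'} := by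
      intro g g' hg hgg' hcon
      obtain ⟨c, hc⟩ := Submodule.mem_span_singleton.mp hcon
      by_cases hc0 : c = 0
      · rw [hc0, zero_smul] at hc; exact hg hc.symm
      · apply hgg'
        have : g' = (c⁻¹ * (c - 1)) • g := by
          have h5 : c • g' = (c - 1) • g := by
            rw [sub_smul, one_smul]
            nth_rewrite 2 [← hc]
            rw [smul_sub]; abel
          rw [mul_smul, ← h5, smul_smul, inv_mul_cancel₀ hc0, one_smul]
        rw [this]
        exact Submodule.smul_mem _ _ (Submodule.mem_span_singleton_self g)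
    rw [move_f_aux hθ h hx2 (key f f'' hf hf''), ← move_f_aux hθ h' hx2 (key f' f'' hf' hf''2)]
  · refine move_f_aux hθ h h' fun hcon => ?_
    obtain ⟨c, hc⟩ := Submodule.mem_span_singleton.mp hcon
    by_cases hc0 : c = 0
    · rw [hc0, zero_smul] at hc; exact hf hc.symm
    · apply h1
      have : f' = (c⁻¹ * (c - 1)) • f := by
        have h5 : c • f' = (c - 1) • f := by
          rw [sub_smul, one_smul]
          nth_rewrite 2 [← hc]
          rw [smul_sub]; abel
        rw [mul_smul, ← h5, smul_smul, inv_mul_cancel₀ hc0, one_smul]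
      rw [this]
      exact Submodule.smul_mem _ _ (Submodule.mem_span_singleton_self f)

theorem move_x_aux {x x' f : ι → F} (h : f ⬝ᵥ x = 0) (hf : f ≠ 0) (hx : x ∉ Submodule.span F {x' - x}) :
    ∃ (f' : ι → F) (h' : f' ⬝ᵥ x' = 0), f' ≠ 0 ∧ θ (tv x f h) = θ (tv x' f' h') := by
  obtain ⟨y, hy, hyx⟩ := exists_vec _ hx
  have hyu : y ⬝ᵥ (x' - x) = 0 := by
    rw [dotProduct_comm]; exact hy _ (Submodule.mem_span_singleton_self _)
  rw [dotProduct_comm] at hyx
  set g := tv (x' - x) y hyu with hg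
  have hgx : (g : Matrix ι ι F) *ᵥ x = x' := by
    rw [hg, tv_mulVec, hyx, one_smul, add_sub_cancel]
  have h1 : (f ᵥ* ((g⁻¹ : SpecialLinearGroup ι F) : Matrix ι ι F)) ⬝ᵥ x' = 0 := by
    rw [← hgx, dot_conj, h]
  refine ⟨f ᵥ* ((g⁻¹ : SpecialLinearGroup ι F) : Matrix ι ι F), h1, ?_, ?_⟩
  · intro h2
    apply hf
    have := congrArg (fun w => w ᵥ* (g : Matrix ι ι F)) h2
    simp only [vecMul_vecMul, zero_vecMul] at this
    rwa [← Matrix.SpecialLinearGroup.coe_mul, inv_mul_cancel, Matrix.SpecialLinearGroup.coe_one, vecMul_one] at this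
  · rw [← hθ g (tv x f h), tv_conj]
    congr 1
    apply tv_congr
    rw [hgx]

theorem char_tv (hn : 3 ≤ Fintype.card ι) {x f x' f' : ι → F} (h : f ⬝ᵥ x = 0) (h' : f' ⬝ᵥ x' = 0) (hx : x ≠ 0) (hf : f ≠ 0)
    (hx' : x' ≠ 0) (hf' : f' ≠ 0) : θ (tv x f h) = θ (tv x' f' h') := by
  have key : ∀ g g' : ι → F, g ≠ 0 → g' ∉ Submodule.span F {g} → g ∉ Submodule.span F {g' - g} := by
    intro g g' hg hgg' hcon
    obtain ⟨c, hc⟩ := Submodule.mem_span_singleton.mp hcon
    by_cases hc0 : c = 0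
    · rw [hc0, zero_smul] at hc; exact hg hc.symm
    · apply hgg'
      have : g' = (c⁻¹ * (c + 1)) • g := by
        have h5 : c • g' = (c + 1) • g := by
          rw [add_smul, one_smul]
          rw [smul_sub, sub_eq_iff_eq_add'] at hc
          exact hc
        rw [mul_smul, ← h5, smul_smul, inv_mul_cancel₀ hc0, one_smul]
      rw [this]
      exact Submodule.smul_mem _ _ (Submodule.mem_span_singleton_self g)
  obtain ⟨z, hz, hz'⟩ := exists_outside (by omega : 2 ≤ Fintype.card ι) x x'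
  obtain ⟨f₁, h₁, hf₁, e₁⟩ := move_x_aux hθ h hf (key x z hx hz)
  obtain ⟨f₂, h₂, hf₂, e₂⟩ := move_x_aux hθ h' hf' (key x' z hx' hz')
  rw [e₁, e₂]
  exact move_f hθ hn h₁ h₂ hf₁ hf₂

end moves

end CfsgLib.SLw
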