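import Cfsg.Agent.LibSLw6

/-! hyperplane radicals with one dimensional weights (helper26) -/
set_option autoImplicit false
set_option linter.unusedSectionVars false

namespace CfsgLib.SLw

open Matrix Module CfsgLib.Wt CfsgLib.WtQ CfsgLib.WtSp

variable {ι : Type} [Fintype ι] [DecidableEq ι] {F : Type*} [Field F] [Finite F]
variable {V : Type*} [AddCommGroup V] [Module ℂ V] [FiniteDimensional ℂ V] (ρ : Representation ℂ (SpecialLinearGroup ι F) V)

/-- all nontrivial weights of hyperplane radicals are one dimensional -/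
def One : Prop := ∀ f : ι → F, f ≠ 0 → ∀ χ : AddChar (K f) ℂ, χ ≠ 0 → finrank ℂ (wt ρ (jf f) χ) = 1

variable {ρ}

theorem char_val (h1 : One ρ) {f : ι → F} (hf : f ≠ 0) (x : K f) (hx : x ≠ 0) :
    ρ.character (jf f (Multiplicative.ofAdd x)) = (finrank ℂ (wt ρ (jf f) 0) : ℂ) - 1 := by
  classical
  rw [trace_apply]
  have h2 : ∀ χ : AddChar (K f) ℂ, χ x * (finrank ℂ (wt ρ (jf f) χ) : ℂ) =
      χ x + if χ = 0 then ((finrank ℂ (wt ρ (jf f) 0) : ℂ) - 1) else 0 := by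
    intro χ
    by_cases h : χ = 0
    · rw [if_pos h, h, AddChar.zero_apply]; ring
    · rw [if_neg h, h1 f hf χ h]; simp
  rw [Finset.sum_congr rfl fun χ _ => h2 χ, Finset.sum_add_distrib, AddChar.sum_apply_eq_ite, if_neg hx, zero_add,
    Finset.sum_ite_eq' Finset.univ (0 : AddChar (K f) ℂ), if_pos (Finset.mem_univ _)]

theorem dim_eq (h1 : One ρ) {f : ι → F} (hf : f ≠ 0) :
    (finrank ℂ V : ℂ) = (finrank ℂ (wt ρ (jf f) 0) : ℂ) + (Nat.card (K f) : ℂ) - 1 := by
  classical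
  rw [finrank_eq_sum ρ (jf f)]
  have h2 : ∀ χ : AddChar (K f) ℂ, (finrank ℂ (wt ρ (jf f) χ) : ℂ) =
      1 + if χ = 0 then ((finrank ℂ (wt ρ (jf f) 0) : ℂ) - 1) else 0 := by
    intro χ
    by_cases h : χ = 0
    · rw [if_pos h, h]; ring
    · rw [if_neg h, h1 f hf χ h]; simp
  rw [Finset.sum_congr rfl fun χ _ => h2 χ, Finset.sum_add_distrib, Finset.sum_ite_eq' Finset.univ (0 : AddChar (K f) ℂ),
    if_pos (Finset.mem_univ _), Finset.sum_const, Finset.card_univ, nsmul_eq_mul, mul_one, AddChar.card_eq,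
    Nat.card_eq_fintype_card]
  ring

theorem card_K_eq {f f' : ι → F} (hf : f ≠ 0) (hf' : f' ≠ 0) : Nat.card (K f) = Nat.card (K f') := by
  have h1 := card_K hf
  have h2 := card_K hf'
  rw [← h2] at h1
  exact Nat.eq_of_mul_eq_mul_right Nat.card_pos h1

theorem c_const (h1 : One ρ) {f f' : ι → F} (hf : f ≠ 0) (hf' : f' ≠ 0) :
    finrank ℂ (wt ρ (jf f) 0) = finrank ℂ (wt ρ (jf f') 0) := by
  have e1 := dim_eq h1 hf
  have e2 := dim_eq h1 hf'
  rw [e1, card_K_eq hf hf'] at e2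
  have : (finrank ℂ (wt ρ (jf f) 0) : ℂ) = finrank ℂ (wt ρ (jf f') 0) := by linear_combination e2
  exact_mod_cast this

/-- the action of a transvection on a hyperplane -/
def alph (f a b : ι → F) (hfa : f ⬝ᵥ a = 0) : K f →+ K f where
  toFun x := ⟨(x : ι → F) - (b ⬝ᵥ (x : ι → F)) • a, by
    rw [mem_K, dotProduct_sub, dotProduct_smul, hfa, smul_zero, sub_zero]; exact x.2⟩
  map_zero' := by
    apply Subtype.ext
    change (0 : ι → F) - (b ⬝ᵥ (0 : ι → F)) • a = 0
    rw [dotProduct_zero, zero_smul, sub_zero]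
  map_add' x y := by
    apply Subtype.ext
    change ((x : ι → F) + y) - (b ⬝ᵥ ((x : ι → F) + y)) • a = ((x : ι → F) - (b ⬝ᵥ (x : ι → F)) • a) + ((y : ι → F) - (b ⬝ᵥ (y : ι → F)) • a)
    rw [dotProduct_add, add_smul]; abel

theorem tv_maps {f a b : ι → F} (hab : b ⬝ᵥ a = 0) (hfa : f ⬝ᵥ a = 0) (χ : AddChar (K f) ℂ) {v : V} (hv : v ∈ wt ρ (jf f) χ) :
    ρ (tv a b hab) v ∈ wt ρ (jf f) (χ.compAddMonoidHom (alph f a b hfa)) := by
  intro x
  have h1 : jf f (Multiplicative.ofAdd x) * tv a b hab = tv a b hab * jf f (Multiplicative.ofAdd (alph f a b hfa x)) := by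
    have h2 := tv_conj' (tv a b hab) (x : ι → F) f x.2
    rw [jf_apply, jf_apply, ← inv_mul_eq_iff_eq_mul, ← mul_assoc]
    refine h2.trans (tv_congr _ _ ?_)
    rw [tv_inv, tv_mulVec, vecMul_tv, hfa, zero_smul, add_zero, smul_neg, ← sub_eq_add_neg]
    rfl
  rw [← Module.End.mul_apply, ← map_mul, h1, map_mul, Module.End.mul_apply, hv, map_smul]
  rfl

/-- a point of a hyperplane -/
def sK (f a : ι → F) (hfa : f ⬝ᵥ a = 0) (t : F) : K f := ⟨t • a, by rw [mem_K, dotProduct_smul, hfa, smul_zero]⟩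

theorem trace_tv_pr (hgood : Good ι F) (h1 : One ρ) {f a b : ι → F} (hf : f ≠ 0) (hab : b ⬝ᵥ a = 0) (hfa : f ⬝ᵥ a = 0)
    (hb : b ∉ Submodule.span F {f}) {χ : AddChar (K f) ℂ} (hχ : χ ≠ 0) [Decidable (∀ t : F, χ (sK f a hfa t) = 1)] :
    LinearMap.trace ℂ V (ρ (tv a b hab) * pr ρ (jf f) χ) = if (∀ t : F, χ (sK f a hfa t) = 1) then 1 else 0 := by
  classical
  by_cases hc : ∀ t : F, χ (sK f a hfa t) = 1
  · rw [if_pos hc]
    have : ρ (tv a b hab) * pr ρ (jf f) χ = pr ρ (jf f) χ := by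
      apply LinearMap.ext
      intro v
      rw [Module.End.mul_apply]
      exact F2 ρ hgood hf hχ (h1 f hf χ hχ) hab hfa hc (pr_mem ρ (jf f) χ v)
    rw [this, trace_pr, h1 f hf χ hχ, Nat.cast_one]
  · rw [if_neg hc]
    push Not at hc
    obtain ⟨t, ht⟩ := hc
    have hne : χ ≠ χ.compAddMonoidHom (alph f a b hfa) := by
      intro heq
      obtain ⟨u, hu, hu2⟩ := exists_vec _ hb
      have hfu : f ⬝ᵥ u = 0 := hu f (Submodule.mem_span_singleton_self _)
      have hx : f ⬝ᵥ (t • u) = 0 := by rw [dotProduct_smul, hfu, smul_zero]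
      have h3 := DFunLike.congr_fun heq ⟨t • u, hx⟩
      rw [AddChar.compAddMonoidHom_apply] at h3
      have h4 : alph f a b hfa ⟨t • u, hx⟩ = ⟨t • u, hx⟩ - sK f a hfa t := by
        apply Subtype.ext
        change t • u - (b ⬝ᵥ (t • u)) • a = t • u - t • a
        rw [dotProduct_smul, hu2, smul_eq_mul, mul_one]
      rw [h4, AddChar.map_sub_eq_div] at h3
      apply ht
      have h5 : χ ⟨t • u, hx⟩ ≠ 0 := (AddChar.val_isUnit _ _).ne_zero
      have h6 : χ (sK f a hfa t) ≠ 0 := (AddChar.val_isUnit _ _).ne_zero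
      rw [eq_div_iff h6] at h3
      exact mul_left_cancel₀ h5 (by rw [h3, mul_one])
    have h7 : pr ρ (jf f) χ * (ρ (tv a b hab) * pr ρ (jf f) χ) = 0 := by
      apply LinearMap.ext
      intro v
      rw [Module.End.mul_apply, Module.End.mul_apply,
        pr_of_mem ρ (jf f) χ _ (tv_maps hab hfa χ (pr_mem ρ (jf f) χ v)), if_neg hne]
      rfl
    have h8 : pr ρ (jf f) χ * pr ρ (jf f) χ = pr ρ (jf f) χ := by
      apply LinearMap.ext
      intro v
      rw [Module.End.mul_apply, pr_of_mem ρ (jf f) χ χ (pr_mem ρ (jf f) χ v), if_pos rfl]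
    rw [← h8, ← mul_assoc, LinearMap.trace_mul_comm, h7, map_zero]

/-- the line of a vector, in a hyperplane -/
def lineK (f a : ι → F) (hfa : f ⬝ᵥ a = 0) : AddSubgroup (K f) where
  carrier := {x | ∃ t : F, (x : ι → F) = t • a}
  add_mem' := by
    rintro x y ⟨s, hs⟩ ⟨t, ht⟩
    exact ⟨s + t, by rw [add_smul, ← hs, ← ht]; rfl⟩
  zero_mem' := ⟨0, by rw [zero_smul]; rfl⟩
  neg_mem' := by
    rintro x ⟨s, hs⟩
    exact ⟨-s, by rw [neg_smul, ← hs]; rfl⟩

theorem card_lineK {f a : ι → F} (hfa : f ⬝ᵥ a = 0) (ha : a ≠ 0) : Nat.card (lineK f a hfa) = Nat.card F := by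
  refine (Nat.card_congr (Equiv.ofBijective (fun t : F => (⟨⟨t • a, by rw [mem_K, dotProduct_smul, hfa, smul_zero]⟩, t, rfl⟩ :
    lineK f a hfa)) ⟨fun s t h => ?_, fun x => ?_⟩)).symm
  · have h2 : s • a = t • a := congrArg (fun z : lineK f a hfa => ((z : K f) : ι → F)) h
    exact smul_left_injective F ha h2
  · obtain ⟨t, ht⟩ := x.2
    exact ⟨t, Subtype.ext (Subtype.ext ht.symm)⟩

theorem trace_tv_ef (hn : 3 ≤ Fintype.card ι) (hgood : Good ι F) (h1 : One ρ) {f a b : ι → F} (hf : f ≠ 0) (ha : a ≠ 0)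
    (hab : b ⬝ᵥ a = 0) (hfa : f ⬝ᵥ a = 0) (hb : b ∉ Submodule.span F {f}) {S : ℕ} (hS : S * Nat.card F = Nat.card (K f)) :
    LinearMap.trace ℂ V (ρ (tv a b hab) * ef ρ f) = (finrank ℂ (wt ρ (jf f) 0) : ℂ) - S := by
  classical
  have hb0 : b ≠ 0 := by
    rintro rfl
    exact hb (Submodule.zero_mem _)
  -- the whole trace
  have e1 : ρ.character (tv a b hab) = (finrank ℂ (wt ρ (jf f) 0) : ℂ) - 1 := by
    rw [← char_val h1 hf ⟨a, hfa⟩ (fun h => ha (congrArg Subtype.val h)), jf_apply]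
    exact char_tv (θ := ρ.character) (fun g t => Representation.char_conj ρ t g) hn hab hfa ha hb0 ha hf
  have e2 : ρ.character (tv a b hab) = ∑ χ : AddChar (K f) ℂ, LinearMap.trace ℂ V (ρ (tv a b hab) * pr ρ (jf f) χ) := by
    rw [← map_sum, ← Finset.mul_sum]
    have : (∑ χ : AddChar (K f) ℂ, pr ρ (jf f) χ) = 1 := by
      apply LinearMap.ext
      intro v
      rw [LinearMap.sum_apply, sum_pr]; rfl
    rw [this, mul_one]; rfl
  have hline : ∀ χ : AddChar (K f) ℂ, (∀ b ∈ lineK f a hfa, χ b = 1) ↔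
      (∀ t : F, χ (sK f a hfa t) = 1) := by
    intro χ
    constructor
    · intro h t
      exact h _ ⟨t, rfl⟩
    · rintro h x ⟨t, ht⟩
      rw [← h t]
      congr 1
      exact Subtype.ext ht
  have : Fintype (lineK f a hfa) := Fintype.ofFinite _
  have hcard := card_trivial (lineK f a hfa)
  rw [← Nat.card_eq_fintype_card, ← Nat.card_eq_fintype_card, card_lineK hfa ha, ← hS] at hcard
  have hcard2 := Nat.eq_of_mul_eq_mul_right Nat.card_pos hcard
  have e3 : ∀ χ : AddChar (K f) ℂ, LinearMap.trace ℂ V (ρ (tv a b hab) * pr ρ (jf f) χ) =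
      (if (∀ b ∈ lineK f a hfa, χ b = 1) then 1 else 0) +
      if χ = 0 then (LinearMap.trace ℂ V (ρ (tv a b hab) * ef ρ f) - 1) else 0 := by
    intro χ
    by_cases h : χ = 0
    · subst h
      rw [if_pos rfl, if_pos (fun b _ => AddChar.zero_apply b), ef]; ring
    · rw [if_neg h, add_zero, trace_tv_pr hgood h1 hf hab hfa hb h]
      by_cases h2 : (∀ b ∈ lineK f a hfa, χ b = 1)
      · rw [if_pos h2, if_pos ((hline χ).mp h2)]
      · rw [if_neg h2, if_neg (fun h3 => h2 ((hline χ).mpr h3))]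
  rw [e1, Finset.sum_congr rfl fun χ _ => e3 χ, Finset.sum_add_distrib, Finset.sum_boole, hcard2,
    Finset.sum_ite_eq' Finset.univ (0 : AddChar (K f) ℂ), if_pos (Finset.mem_univ _)] at e2
  linear_combination (-1 : ℂ) * e2

end CfsgLib.SLw
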