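import Cfsg.Agent.LibSLw7

/-! two hyperplanes: the stabiliser of the pencil and its action on the fixed space (helper26) -/
set_option autoImplicit false
set_option linter.unusedSectionVars false

namespace CfsgLib.SLw

open Matrix Module CfsgLib.Wt CfsgLib.WtQ CfsgLib.WtSp

section general

variable {G V M : Type*} [Group G] [AddCommGroup V] [Module ℂ V] [AddCommGroup M]

theorem finrank_wt_sub [FiniteDimensional ℂ V] (ρ : Representation ℂ G V) (j : Multiplicative M →* G) (S : Subrepresentation ρ)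
    (χ : AddChar M ℂ) : finrank ℂ (wt S.toRepresentation j χ) = finrank ℂ (wt ρ j χ ⊓ S.toSubmodule : Submodule ℂ V) := by
  have h1 : (wt S.toRepresentation j χ).map S.toSubmodule.subtype = wt ρ j χ ⊓ S.toSubmodule := by
    ext v
    constructor
    · rintro ⟨w, hw, rfl⟩
      refine ⟨fun m => ?_, w.2⟩
      exact congrArg Subtype.val (hw m)
    · rintro ⟨h1, h2⟩
      exact ⟨⟨v, h2⟩, fun m => Subtype.ext (h1 m), rfl⟩
  rw [← h1]
  exact (LinearEquiv.finrank_eq (Submodule.equivMapOfInjective _ (Submodule.subtype_injective _) _))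

end general

variable {ι : Type} [Fintype ι] [DecidableEq ι] {F : Type*} [Field F] [Finite F]

/-- the stabiliser of a space of functionals -/
def PW (W : Submodule F (ι → F)) : Subgroup (SpecialLinearGroup ι F) where
  carrier := {g | ∀ y ∈ W, y ᵥ* (g : Matrix ι ι F) ∈ W ∧ y ᵥ* ((g⁻¹ : SpecialLinearGroup ι F) : Matrix ι ι F) ∈ W}
  mul_mem' {a b} ha hb := fun y hy => by
    constructor
    · rw [Matrix.SpecialLinearGroup.coe_mul, ← vecMul_vecMul]
      exact (hb _ (ha y hy).1).1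
    · rw [_root_.mul_inv_rev, Matrix.SpecialLinearGroup.coe_mul, ← vecMul_vecMul]
      exact (ha _ (hb y hy).2).2
  one_mem' := fun y hy => by
    rw [inv_one, Matrix.SpecialLinearGroup.coe_one, vecMul_one]
    exact ⟨hy, hy⟩
  inv_mem' {a} ha := fun y hy => by
    rw [inv_inv]
    exact ⟨(ha y hy).2, (ha y hy).1⟩

theorem tv_mem_PW (W : Submodule F (ι → F)) {x y : ι → F} (h : y ⬝ᵥ x = 0) (hy : y ∈ W) : tv x y h ∈ PW W := by
  intro w hw
  constructor
  · rw [vecMul_tv]
    exact W.add_mem hw (W.smul_mem _ hy)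
  · rw [tv_inv, vecMul_tv]
    exact W.add_mem hw (W.smul_mem _ hy)

/-- transvections with axis in a pencil -/
def jW (W : Submodule F (ι → F)) (y : ι → F) (hy : y ∈ W) : Multiplicative (K y) →* PW W :=
  (jf y).codRestrict (PW W) fun x => tv_mem_PW W (Multiplicative.toAdd x).2 hy

theorem jW_val (W : Submodule F (ι → F)) (y : ι → F) (hy : y ∈ W) (x : K y) :
    ((jW W y hy (Multiplicative.ofAdd x) : PW W) : SpecialLinearGroup ι F) = tv (x : ι → F) y x.2 := rfl

theorem jW_conj (W : Submodule F (ι → F)) (y : ι → F) (hy : y ∈ W) (x : K y) (g : PW W) :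
    jW W y hy (Multiplicative.ofAdd x) * g = g * jW W (y ᵥ* ((g : SpecialLinearGroup ι F) : Matrix ι ι F)) ((g.2 y hy).1)
      (Multiplicative.ofAdd ⟨(((g : SpecialLinearGroup ι F)⁻¹ : SpecialLinearGroup ι F) : Matrix ι ι F) *ᵥ (x : ι → F), by
        rw [mem_K, dot_conj']; exact x.2⟩) := by
  apply Subtype.ext
  change (tv (x : ι → F) y x.2) * (g : SpecialLinearGroup ι F) = (g : SpecialLinearGroup ι F) *
    tv ((((g : SpecialLinearGroup ι F)⁻¹ : SpecialLinearGroup ι F) : Matrix ι ι F) *ᵥ (x : ι → F))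
      (y ᵥ* ((g : SpecialLinearGroup ι F) : Matrix ι ι F)) (by rw [dot_conj']; exact x.2)
  rw [← inv_mul_eq_iff_eq_mul, ← mul_assoc]
  exact tv_conj' (g : SpecialLinearGroup ι F) (x : ι → F) y x.2

variable {U : Type*} [AddCommGroup U] [Module ℂ U]

/-- vectors fixed by a family of transvections -/
def fixP (W : Submodule F (ι → F)) (p : (ι → F) → Prop)
    (hp : ∀ g : PW W, ∀ x, p x → p ((((g : SpecialLinearGroup ι F)⁻¹ : SpecialLinearGroup ι F) : Matrix ι ι F) *ᵥ x))
    (τ : Representation ℂ (PW W) U) : Subrepresentation τ where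
  toSubmodule :=
    { carrier := {v | ∀ (y : ι → F) (hy : y ∈ W) (x : K y), p x → τ (jW W y hy (Multiplicative.ofAdd x)) v = v}
      add_mem' := fun {a b} ha hb y hy x hx => by rw [map_add, ha y hy x hx, hb y hy x hx]
      zero_mem' := fun y hy x _ => map_zero _
      smul_mem' := fun c v hv y hy x hx => by rw [map_smul, hv y hy x hx] }
  apply_mem_toSubmodule g v hv := fun y hy x hx => by
    rw [← Module.End.mul_apply, ← map_mul, jW_conj, map_mul, Module.End.mul_apply]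
    congr 1
    exact hv _ _ _ (hp g x hx)

theorem perp_inv (W : Submodule F (ι → F)) (g : PW W) (x : ι → F) (hx : ∀ w ∈ W, w ⬝ᵥ x = 0) :
    ∀ w ∈ W, w ⬝ᵥ ((((g : SpecialLinearGroup ι F)⁻¹ : SpecialLinearGroup ι F) : Matrix ι ι F) *ᵥ x) = 0 := by
  intro w hw
  rw [dotProduct_mulVec]
  exact hx _ (g.2 w hw).2

/-- fixed points of the radical of the stabiliser of a pencil -/
def fix2 (W : Submodule F (ι → F)) (τ : Representation ℂ (PW W) U) : Subrepresentation τ :=
  fixP W (fun x => ∀ w ∈ W, w ⬝ᵥ x = 0) (fun g x hx => perp_inv W g x hx) τ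

/-- fixed points of all the transvections with axis in the pencil -/
def fixS (W : Submodule F (ι → F)) (τ : Representation ℂ (PW W) U) : Subrepresentation τ :=
  fixP W (fun _ => True) (fun _ _ _ => trivial) τ

theorem mem_fix2 {W : Submodule F (ι → F)} {τ : Representation ℂ (PW W) U} {v : U} :
    v ∈ (fix2 W τ).toSubmodule ↔ ∀ (y : ι → F) (hy : y ∈ W) (x : K y), (∀ w ∈ W, w ⬝ᵥ (x : ι → F) = 0) →
      τ (jW W y hy (Multiplicative.ofAdd x)) v = v := Iff.rfl

theorem mem_fixS {W : Submodule F (ι → F)} {τ : Representation ℂ (PW W) U} {v : U} :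
    v ∈ (fixS W τ).toSubmodule ↔ ∀ (y : ι → F) (hy : y ∈ W) (x : K y),
      τ (jW W y hy (Multiplicative.ofAdd x)) v = v :=
  ⟨fun h y hy x => h y hy x trivial, fun h y hy x _ => h y hy x⟩

variable {V : Type*} [AddCommGroup V] [Module ℂ V] [FiniteDimensional ℂ V]
  (ρ : Representation ℂ (SpecialLinearGroup ι F) V)

/-- the restriction to the stabiliser -/
def sg (W : Submodule F (ι → F)) : Representation ℂ (PW W) V := ρ.comp (PW W).subtype

theorem sg_apply (W : Submodule F (ι → F)) (g : PW W) : sg ρ W g = ρ (g : SpecialLinearGroup ι F) := rfl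

theorem wt_sg (W : Submodule F (ι → F)) (y : ι → F) (hy : y ∈ W) (χ : AddChar (K y) ℂ) :
    wt (sg ρ W) (jW W y hy) χ = wt ρ (jf y) χ := rfl

theorem pr_sg (W : Submodule F (ι → F)) (y : ι → F) (hy : y ∈ W) (χ : AddChar (K y) ℂ) :
    pr (sg ρ W) (jW W y hy) χ = pr ρ (jf y) χ := rfl

/-- the second radical -/
def j2 (f f' : ι → F) : Multiplicative (K f ⊓ K f' : AddSubgroup (ι → F)) →* SpecialLinearGroup ι F :=
  (jf f').comp (AddMonoidHom.toMultiplicative (AddSubgroup.inclusion inf_le_right))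

theorem j2_apply (f f' : ι → F) (x : (K f ⊓ K f' : AddSubgroup (ι → F))) :
    j2 f f' (Multiplicative.ofAdd x) = tv (x : ι → F) f' x.2.2 := rfl

noncomputable instance fintypeK2 (f f' : ι → F) : Fintype (K f ⊓ K f' : AddSubgroup (ι → F)) := Fintype.ofFinite _

theorem comm_tv_ef {f f' x : ι → F} (hx : f ⬝ᵥ x = 0) (hx' : f' ⬝ᵥ x = 0) :
    ρ (tv x f' hx') * ef ρ f = ef ρ f * ρ (tv x f' hx') := by
  rw [ef_conj, tv_inv, vecMul_tv, dotProduct_neg, hx, neg_zero, zero_smul, add_zero]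

theorem comm_j2_ef (f f' : ι → F) : pr ρ (j2 f f') 0 * pr ρ (jf f) 0 = pr ρ (jf f) 0 * pr ρ (j2 f f') 0 := by
  have h : ∀ x : (K f ⊓ K f' : AddSubgroup (ι → F)), ρ (j2 f f' (Multiplicative.ofAdd x)) * pr ρ (jf f) 0 =
      pr ρ (jf f) 0 * ρ (j2 f f' (Multiplicative.ofAdd x)) := fun x => comm_tv_ef ρ x.2.1 x.2.2
  rw [pr, smul_mul_assoc, mul_smul_comm, Finset.sum_mul, Finset.mul_sum]
  congr 1
  refine Finset.sum_congr rfl fun x _ => ?_
  rw [smul_mul_assoc, mul_smul_comm, h]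

/-- the dimension of the common fixed space -/
theorem p_eq (hn : 3 ≤ Fintype.card ι) (hgood : Good ι F) (h1 : One ρ) {f f' : ι → F} (hf : f ≠ 0)
    (hf' : f' ∉ Submodule.span F {f}) :
    finrank ℂ (wt ρ (j2 f f') 0 ⊓ wt ρ (jf f) 0 : Submodule ℂ V) + Nat.card (K f ⊓ K f' : AddSubgroup (ι → F)) =
      finrank ℂ (wt ρ (jf f) 0) + 1 := by
  classical
  have e1 := trace_mul_of_comm ρ (j2 f f') (jf f) (comm_j2_ef ρ f f')
  set S := Nat.card (K f ⊓ K f' : AddSubgroup (ι → F)) with hS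
  have hSc : S * Nat.card F = Nat.card (K f) := card_K2 hf'
  have e2 : ∀ x : (K f ⊓ K f' : AddSubgroup (ι → F)),
      LinearMap.trace ℂ V (ρ (j2 f f' (Multiplicative.ofAdd x)) * pr ρ (jf f) 0) =
      ((finrank ℂ (wt ρ (jf f) 0) : ℂ) - S) + if x = 0 then (S : ℂ) else 0 := by
    intro x
    by_cases hx : x = 0
    · subst hx
      rw [if_pos rfl, ofAdd_zero, map_one, map_one, one_mul, trace_pr]; ring
    · rw [if_neg hx, add_zero, j2_apply]
      exact trace_tv_ef hn hgood h1 hf (fun h => hx (Subtype.ext h)) x.2.2 x.2.1 hf' hSc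
  have e3 : LinearMap.trace ℂ V (pr ρ (j2 f f') 0 * pr ρ (jf f) 0) =
      (S : ℂ)⁻¹ * ∑ x : (K f ⊓ K f' : AddSubgroup (ι → F)),
        LinearMap.trace ℂ V (ρ (j2 f f' (Multiplicative.ofAdd x)) * pr ρ (jf f) 0) := by
    rw [show pr ρ (j2 f f') 0 = (Fintype.card (K f ⊓ K f' : AddSubgroup (ι → F)) : ℂ)⁻¹ •
      ∑ m, (0 : AddChar (K f ⊓ K f' : AddSubgroup (ι → F)) ℂ) (-m) • ρ (j2 f f' (Multiplicative.ofAdd m)) from rfl,
      smul_mul_assoc, map_smul, smul_eq_mul, ← Nat.card_eq_fintype_card, ← hS, Finset.sum_mul, map_sum]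
    congr 1
    refine Finset.sum_congr rfl fun x _ => ?_
    rw [AddChar.zero_apply, one_smul]
  have hS0 : (S : ℂ) ≠ 0 := Nat.cast_ne_zero.mpr Nat.card_pos.ne'
  rw [e1, Finset.sum_congr rfl fun x _ => e2 x, Finset.sum_add_distrib, Finset.sum_const, Finset.card_univ,
    Finset.sum_ite_eq' Finset.univ (0 : (K f ⊓ K f' : AddSubgroup (ι → F))), if_pos (Finset.mem_univ _), nsmul_eq_mul,
    ← Nat.card_eq_fintype_card, ← hS] at e3
  have e4 : ((finrank ℂ (wt ρ (j2 f f') 0 ⊓ wt ρ (jf f) 0 : Submodule ℂ V) : ℕ) : ℂ) + S =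
      (finrank ℂ (wt ρ (jf f) 0) : ℂ) + 1 := by
    rw [e3]
    field_simp
    ring
  exact_mod_cast e4

end CfsgLib.SLw
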