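import Cfsg.Agent.LibSLw8

/-! two hyperplanes: the dimension of the fixed space of the radical (helper26) -/
set_option autoImplicit false
set_option linter.unusedSectionVars false

namespace CfsgLib.SLw

open Matrix Module CfsgLib.Wt CfsgLib.WtQ CfsgLib.WtSp

variable {ι : Type} [Fintype ι] [DecidableEq ι] {F : Type*} [Field F] [Finite F]
variable {V : Type*} [AddCommGroup V] [Module ℂ V] [FiniteDimensional ℂ V]
  {ρ : Representation ℂ (SpecialLinearGroup ι F) V}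

theorem mem_V2_iff {f f' : ι → F} {W : Submodule F (ι → F)} (hW : W = Submodule.span F {f, f'}) {v : V} :
    v ∈ (fix2 W (sg ρ W)).toSubmodule ↔ ∀ (x : ι → F) (hx : f ⬝ᵥ x = 0) (hx' : f' ⬝ᵥ x = 0),
      ρ (tv x f hx) v = v ∧ ρ (tv x f' hx') v = v := by
  have hf : f ∈ W := by rw [hW]; exact Submodule.subset_span (by simp)
  have hf' : f' ∈ W := by rw [hW]; exact Submodule.subset_span (by simp)
  have hperp : ∀ x : ι → F, f ⬝ᵥ x = 0 → f' ⬝ᵥ x = 0 → ∀ w ∈ W, w ⬝ᵥ x = 0 := by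
    intro x hx hx' w hw
    rw [hW] at hw
    obtain ⟨α, β, rfl⟩ := Submodule.mem_span_pair.mp hw
    rw [add_dotProduct, smul_dotProduct, smul_dotProduct, hx, hx', smul_zero, smul_zero, add_zero]
  rw [mem_fix2]
  constructor
  · intro h x hx hx'
    exact ⟨h f hf ⟨x, hx⟩ (hperp x hx hx'), h f' hf' ⟨x, hx'⟩ (hperp x hx hx')⟩
  · intro h y hy x hx
    have hy' := hy
    rw [hW] at hy'
    obtain ⟨α, β, rfl⟩ := Submodule.mem_span_pair.mp hy'
    have hxf : f ⬝ᵥ (x : ι → F) = 0 := hx f hf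
    have hxf' : f' ⬝ᵥ (x : ι → F) = 0 := hx f' hf'
    have h1 : (α • f) ⬝ᵥ (x : ι → F) = 0 := by rw [smul_dotProduct, hxf, smul_zero]
    have h2 : (β • f') ⬝ᵥ (x : ι → F) = 0 := by rw [smul_dotProduct, hxf', smul_zero]
    change ρ (tv (x : ι → F) (α • f + β • f') x.2) v = v
    rw [← tv_mul_right (x : ι → F) (α • f) (β • f') h1 h2, map_mul, Module.End.mul_apply]
    have e1 : tv (x : ι → F) (β • f') h2 = tv (β • (x : ι → F)) f' (by rw [dotProduct_smul, hxf', smul_zero]) :=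
      tv_congr _ _ (by rw [vecMulVec_smul, smul_vecMulVec])
    have e2 : tv (x : ι → F) (α • f) h1 = tv (α • (x : ι → F)) f (by rw [dotProduct_smul, hxf, smul_zero]) :=
      tv_congr _ _ (by rw [vecMulVec_smul, smul_vecMulVec])
    rw [e1, (h (β • (x : ι → F)) (by rw [dotProduct_smul, hxf, smul_zero]) (by rw [dotProduct_smul, hxf', smul_zero])).2, e2,
      (h (α • (x : ι → F)) (by rw [dotProduct_smul, hxf, smul_zero]) (by rw [dotProduct_smul, hxf', smul_zero])).1]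

/-- the representation on the fixed space -/
noncomputable def s2 (ρ : Representation ℂ (SpecialLinearGroup ι F) V) (W : Submodule F (ι → F)) :
    Representation ℂ (PW W) (fix2 W (sg ρ W)).toSubmodule := (fix2 W (sg ρ W)).toRepresentation

theorem finrank_s2_zero {f f' : ι → F} {W : Submodule F (ι → F)} (hW : W = Submodule.span F {f, f'}) (hf : f ∈ W) :
    finrank ℂ (wt (s2 ρ W) (jW W f hf) 0) = finrank ℂ (wt ρ (j2 f f') 0 ⊓ wt ρ (jf f) 0 : Submodule ℂ V) := by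
  have e1 : finrank ℂ (wt (s2 ρ W) (jW W f hf) 0) =
      finrank ℂ (wt (sg ρ W) (jW W f hf) 0 ⊓ (fix2 W (sg ρ W)).toSubmodule : Submodule ℂ V) := finrank_wt_sub _ _ _ _
  rw [e1, wt_sg]
  have e2 : (wt ρ (jf f) 0 ⊓ (fix2 W (sg ρ W)).toSubmodule : Submodule ℂ V) = wt ρ (j2 f f') 0 ⊓ wt ρ (jf f) 0 := ?_
  · rw [e2]
  ext v
  constructor
  · rintro ⟨h1, h2⟩
    rw [SetLike.mem_coe, mem_V2_iff hW] at h2
    refine ⟨fun x => ?_, h1⟩
    rw [AddChar.zero_apply, one_smul, j2_apply]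
    exact (h2 x x.2.1 x.2.2).2
  · rintro ⟨h1, h2⟩
    refine ⟨h2, ?_⟩
    rw [SetLike.mem_coe, mem_V2_iff hW]
    intro x hx hx'
    constructor
    · have := h2 ⟨x, hx⟩
      rwa [AddChar.zero_apply, one_smul] at this
    · have := h1 ⟨x, hx, hx'⟩
      rwa [AddChar.zero_apply, one_smul] at this

/-- the subgroup of common zeros -/
def kk (f f' : ι → F) : AddSubgroup (K f) := (K f').comap (K f).subtype

theorem mem_kk {f f' : ι → F} {x : K f} : x ∈ kk f f' ↔ f' ⬝ᵥ (x : ι → F) = 0 := Iff.rfl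

theorem card_kk {f f' : ι → F} (hf' : f' ∉ Submodule.span F {f}) : Nat.card (kk f f') * Nat.card F = Nat.card (K f) := by
  rw [← card_K2 hf']
  congr 1
  exact Nat.card_congr ⟨fun x => ⟨(x : K f), x.1.2, x.2⟩, fun x => ⟨⟨x, x.2.1⟩, x.2.2⟩, fun x => rfl, fun x => rfl⟩

theorem finrank_s2_one (hgood : Good ι F) (h1 : One ρ) {f f' : ι → F} {W : Submodule F (ι → F)}
    (hW : W = Submodule.span F {f, f'}) (hf : f ∈ W) (hf0 : f ≠ 0) {χ : AddChar (K f) ℂ} (hχ : χ ≠ 0)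
    (hχ2 : ∀ x ∈ kk f f', χ x = 1) :
    finrank ℂ (wt (s2 ρ W) (jW W f hf) χ) = 1 := by
  have e1 : finrank ℂ (wt (s2 ρ W) (jW W f hf) χ) =
      finrank ℂ (wt (sg ρ W) (jW W f hf) χ ⊓ (fix2 W (sg ρ W)).toSubmodule : Submodule ℂ V) := finrank_wt_sub _ _ _ _
  rw [e1, wt_sg, inf_eq_left.mpr, h1 f hf0 χ hχ]
  intro v hv
  rw [mem_V2_iff hW]
  intro x hx hx'
  constructor
  · have h2 := hv ⟨x, hx⟩
    rw [hχ2 ⟨x, hx⟩ hx', one_smul] at h2
    exact h2
  · refine F2 ρ hgood hf0 hχ (h1 f hf0 χ hχ) hx' hx (fun t => hχ2 _ ?_) hv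
    rw [mem_kk]
    change f' ⬝ᵥ (t • x) = 0
    rw [dotProduct_smul, hx', smul_zero]

theorem finrank_s2_none {f f' : ι → F} {W : Submodule F (ι → F)}
    (hW : W = Submodule.span F {f, f'}) (hf : f ∈ W) {χ : AddChar (K f) ℂ} (hχ2 : ¬ ∀ x ∈ kk f f', χ x = 1) :
    finrank ℂ (wt (s2 ρ W) (jW W f hf) χ) = 0 := by
  have e1 : finrank ℂ (wt (s2 ρ W) (jW W f hf) χ) =
      finrank ℂ (wt (sg ρ W) (jW W f hf) χ ⊓ (fix2 W (sg ρ W)).toSubmodule : Submodule ℂ V) := finrank_wt_sub _ _ _ _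
  rw [e1, wt_sg]
  push Not at hχ2
  obtain ⟨x, hx, hx1⟩ := hχ2
  rw [Submodule.finrank_eq_zero, eq_bot_iff]
  rintro v ⟨hv1, hv2⟩
  rw [SetLike.mem_coe, mem_V2_iff hW] at hv2
  have h2 := (hv2 x x.2 hx).1
  have h3 := hv1 x
  rw [jf_apply, h2] at h3
  by_contra hv0
  rw [Submodule.mem_bot] at hv0
  apply hx1
  have h4 : (χ x - 1) • v = 0 := by rw [sub_smul, one_smul, ← h3, sub_self]
  exact sub_eq_zero.mp ((smul_eq_zero.mp h4).resolve_right hv0)

theorem card_chars {f f' : ι → F} (hf' : f' ∉ Submodule.span F {f})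
    [DecidablePred fun χ : AddChar (K f) ℂ => ∀ x ∈ kk f f', χ x = 1] :
    (Finset.univ.filter fun χ : AddChar (K f) ℂ => ∀ x ∈ kk f f', χ x = 1).card = Nat.card F := by
  have : Fintype (kk f f') := Fintype.ofFinite _
  have h1 := card_trivial (kk f f')
  rw [← Nat.card_eq_fintype_card, ← Nat.card_eq_fintype_card, ← card_kk hf', mul_comm] at h1
  exact Nat.eq_of_mul_eq_mul_left Nat.card_pos h1

/-- general dimension count -/
theorem finrank_of_chars {U : Type*} [AddCommGroup U] [Module ℂ U] [FiniteDimensional ℂ U] {f f' : ι → F}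
    {W : Submodule F (ι → F)} (hf : f ∈ W) (hf' : f' ∉ Submodule.span F {f}) (τ : Representation ℂ (PW W) U)
    (h1 : ∀ χ : AddChar (K f) ℂ, χ ≠ 0 → (∀ x ∈ kk f f', χ x = 1) → finrank ℂ (wt τ (jW W f hf) χ) = 1)
    (h2 : ∀ χ : AddChar (K f) ℂ, ¬ (∀ x ∈ kk f f', χ x = 1) → finrank ℂ (wt τ (jW W f hf) χ) = 0) :
    finrank ℂ U + 1 = finrank ℂ (wt τ (jW W f hf) 0) + Nat.card F := by
  classical
  have e1 := finrank_eq_sum τ (jW W f hf)
  have e2 : ∀ χ : AddChar (K f) ℂ, (finrank ℂ (wt τ (jW W f hf) χ) : ℂ) =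
      (if (∀ x ∈ kk f f', χ x = 1) then 1 else 0) +
      if χ = 0 then ((finrank ℂ (wt τ (jW W f hf) 0) : ℂ) - 1) else 0 := by
    intro χ
    by_cases h : χ = 0
    · subst h
      rw [if_pos rfl, if_pos (fun b _ => AddChar.zero_apply b)]; ring
    · rw [if_neg h, add_zero]
      by_cases h3 : ∀ x ∈ kk f f', χ x = 1
      · rw [if_pos h3, h1 χ h h3, Nat.cast_one]
      · rw [if_neg h3, h2 χ h3, Nat.cast_zero]
  rw [Finset.sum_congr rfl fun χ _ => e2 χ, Finset.sum_add_distrib, Finset.sum_boole, card_chars hf',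
    Finset.sum_ite_eq' Finset.univ (0 : AddChar (K f) ℂ), if_pos (Finset.mem_univ _)] at e1
  have e3 : ((finrank ℂ U + 1 : ℕ) : ℂ) = ((finrank ℂ (wt τ (jW W f hf) 0) + Nat.card F : ℕ) : ℂ) := by
    push_cast
    linear_combination e1
  exact_mod_cast e3

section fixS

variable {U : Type*} [AddCommGroup U] [Module ℂ U] [FiniteDimensional ℂ U] {W : Submodule F (ι → F)}
  (τ : Representation ℂ (PW W) U)

theorem fixS_zero {y : ι → F} (hy : y ∈ W) :
    finrank ℂ (wt (fixS W τ).toRepresentation (jW W y hy) 0) = finrank ℂ (fixS W τ).toSubmodule := by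
  rw [finrank_wt_sub, inf_eq_right.mpr]
  intro v hv x
  rw [AddChar.zero_apply, one_smul]
  exact mem_fixS.mp hv y hy x

theorem fixS_ne {y : ι → F} (hy : y ∈ W) {χ : AddChar (K y) ℂ} (hχ : χ ≠ 0) :
    finrank ℂ (wt (fixS W τ).toRepresentation (jW W y hy) χ) = 0 := by
  rw [finrank_wt_sub, Submodule.finrank_eq_zero, eq_bot_iff]
  rintro v ⟨hv1, hv2⟩
  by_contra hv0
  rw [Submodule.mem_bot] at hv0
  apply hχ
  ext x
  have h3 := hv1 x
  rw [mem_fixS.mp hv2 y hy x] at h3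
  have h4 : (χ x - 1) • v = 0 := by rw [sub_smul, one_smul, ← h3, sub_self]
  exact sub_eq_zero.mp ((smul_eq_zero.mp h4).resolve_right hv0)

/-- the trace of products on the fixed space -/
theorem fixS_trace {y y' : ι → F} (hy : y ∈ W) (hy' : y' ∈ W) :
    LinearMap.trace ℂ (fixS W τ).toSubmodule
      (pr (fixS W τ).toRepresentation (jW W y hy) 0 * pr (fixS W τ).toRepresentation (jW W y' hy') 0) =
      finrank ℂ (fixS W τ).toSubmodule := by
  classical
  have h1 : ∀ (z : ι → F) (hz : z ∈ W), pr (fixS W τ).toRepresentation (jW W z hz) 0 = 1 := by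
    intro z hz
    apply LinearMap.ext
    intro v
    rw [pr_of_mem (fixS W τ).toRepresentation (jW W z hz) 0 0 (v := v), if_pos rfl]
    · rfl
    · intro x
      rw [AddChar.zero_apply, one_smul]
      exact Subtype.ext (mem_fixS.mp v.2 z hz x)
  rw [h1, h1, one_mul, LinearMap.trace_one]

end fixS

end CfsgLib.SLw
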