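import Cfsg.Agent.LibSOm9

set_option autoImplicit false

/-! `SO_4^+(q)`, `q` odd: a Sylow `2`-subgroup and its centre (lead). -/

namespace CfsgLib.SOm

open Cfsg.Agent.H22 Module Equiv

/-- with control of the centre -/
def SEz (G : Type*) [Group G] (z : G) : Prop :=
  ∃ P : Subgroup G, IsPGroup 2 P ∧ ¬ 2 ∣ P.index ∧ (∀ x ∈ P, x ^ 2 ∈ ⁅P, P⁆) ∧ z ∈ P ∧ (∀ y ∈ P, z * y = y * z) ∧
    (∀ x ∈ P, (∀ y ∈ P, x * y = y * x) → x = 1 ∨ x = z)

theorem SEz.congr {G H : Type*} [Group G] [Group H] (e : G ≃* H) {z : G} (h : SEz G z) : SEz H (e z) := by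
  obtain ⟨P0, hp, hi, hx, hz, hzz, hc⟩ := h
  refine ⟨P0.map e.toMonoidHom, hp.map _, ?_, ?_, ⟨z, hz, rfl⟩, ?_, ?_⟩
  · rw [Subgroup.index_map_of_bijective e.bijective]
    exact hi
  · rintro _ ⟨y, hy, rfl⟩
    rw [← Subgroup.map_commutator, ← map_pow]
    exact Subgroup.mem_map_of_mem _ (hx y hy)
  · rintro _ ⟨y, hy, rfl⟩
    change e z * e y = e y * e z
    rw [← map_mul, hzz y hy, map_mul]
  · rintro _ ⟨x, hx, rfl⟩ h
    rcases hc x hx (fun y hy => by
      have := h (e y) ⟨y, hy, rfl⟩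
      apply e.injective
      rw [map_mul, map_mul]
      exact this) with h1 | h1
    · left
      rw [h1]
      exact map_one e
    · right
      rw [h1]
      rfl

/-- from the centralizer of `z` to the group -/
theorem SEz.se' {G : Type*} [Group G] [Finite G] {z : G} (hz1 : z ≠ 1) (X : Subgroup G) (hzX : z ∈ X)
    (hX : ∀ g : G, g * z * g⁻¹ = z → g ∈ X) (h : SEz X ⟨z, hzX⟩) : SE' G := by
  have : Fact (Nat.Prime 2) := ⟨Nat.prime_two⟩
  obtain ⟨P0, hp, hi, hx, hz, hzz, hc⟩ := h
  set P : Subgroup G := P0.map X.subtype with hP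
  have hPp : IsPGroup 2 P := hp.map _
  refine ⟨P, ?_, ?_, ?_⟩
  · exact hPp
  · -- P is Sylow
    obtain ⟨S, hS⟩ := hPp.exists_le_sylow
    have hPS : P = (S : Subgroup G) := by
      by_contra hne
      -- normalizer grows
      have hlt : P.subgroupOf S.toSubgroup < ⊤ := by
        refine lt_top_iff_ne_top.2 fun h => hne (le_antisymm hS ?_)
        rwa [Subgroup.subgroupOf_eq_top] at h
      have hSn : Group.IsNilpotent S.toSubgroup := S.isPGroup'.isNilpotent
      have hnorm := (Group.normalizerCondition_of_isNilpotent (G := S.toSubgroup)) _ hlt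
      obtain ⟨x, hx1, hx2⟩ := SetLike.exists_of_lt hnorm
      have hxP : (x : G) ∉ P := fun h => hx2 h
      have hxn : ∀ y ∈ P, (x : G) * y * (x : G)⁻¹ ∈ P := by
        intro y hy
        have := (Subgroup.mem_normalizer_iff.1 hx1 ⟨y, hS hy⟩).1 hy
        exact this
      have hxn' : ∀ y ∈ P, (x : G)⁻¹ * y * (x : G) ∈ P := by
        intro y hy
        have := (Subgroup.mem_normalizer_iff.1 (Subgroup.inv_mem _ hx1) ⟨y, hS hy⟩).1 hy
        have h2 : ((x⁻¹ * ⟨y, hS hy⟩ * x⁻¹⁻¹ : S.toSubgroup) : G) = (x : G)⁻¹ * y * (x : G) := by simp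
        rw [← h2]
        exact this
      have hzP : z ∈ P := ⟨_, hz, rfl⟩
      have hzcen : ∀ y ∈ P, z * y = y * z := by
        rintro _ ⟨y, hy, rfl⟩
        exact congrArg Subtype.val (hzz y hy)
      have hzc : (x : G) * z * (x : G)⁻¹ = z := by
        obtain ⟨w, hw, hwz⟩ := hxn z hzP
        have hwc : ∀ y ∈ P0, w * y = y * w := by
          intro y hy
          apply Subtype.ext
          change (w : G) * (y : G) = (y : G) * (w : G)
          have hwz' : (w : G) = (x : G) * z * (x : G)⁻¹ := hwz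
          rw [hwz']
          have h3 := hzcen _ (hxn' (y : G) ⟨y, hy, rfl⟩)
          calc (x : G) * z * (x : G)⁻¹ * (y : G) = (x : G) * (z * ((x : G)⁻¹ * (y : G) * (x : G))) * (x : G)⁻¹ := by group
            _ = (x : G) * (((x : G)⁻¹ * (y : G) * (x : G)) * z) * (x : G)⁻¹ := by rw [h3]
            _ = _ := by group
        rcases hc w hw hwc with h | h
        · exfalso
          rw [h] at hwz
          apply hz1
          have : (x : G) * z * (x : G)⁻¹ = 1 := by rw [← hwz]; rfl
          rw [mul_inv_eq_one] at this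
          simpa using this
        · rw [h] at hwz
          exact hwz.symm
      have hxX := hX _ hzc
      have hmax := (hp.toSylow hi).is_maximal' (Q := S.toSubgroup.subgroupOf X) S.isPGroup'.comap_subtype (by
        intro y hy
        exact hS ⟨y, hy, rfl⟩)
      have hxQ : (⟨x, hxX⟩ : X) ∈ S.toSubgroup.subgroupOf X := x.2
      rw [hmax] at hxQ
      exact hxP ⟨_, hxQ, rfl⟩
    rw [hPS]
    exact S.not_dvd_index
  · rintro _ ⟨y, hy, rfl⟩
    rw [hP, ← Subgroup.map_commutator, ← map_pow]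
    exact Subgroup.mem_map_of_mem _ (hx y hy)

variable {F : Type*} [Field F]

/-- determinant homomorphism -/
noncomputable def detO {V : Type*} [AddCommGroup V] [Module F V] (Q : QuadraticForm F V) : OGrp Q →* Fˣ :=
  LinearEquiv.det.comp (OGrp Q).subtype

lemma mem_detO {V : Type*} [AddCommGroup V] [Module F V] (Q : QuadraticForm F V) (g : OGrp Q) :
    g ∈ (detO Q).ker ↔ LinearMap.det (g.1 : V →ₗ[F] V) = 1 := by
  rw [MonoidHom.mem_ker, ← Units.val_inj, Units.val_one]
  have : ((detO Q g : Fˣ) : F) = LinearMap.det (g.1 : V →ₗ[F] V) := LinearEquiv.coe_det g.1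
  rw [this]

/-- `-1` on the plane -/
noncomputable def neg2 (F : Type*) [Field F] : R2 F := ⟨LinearEquiv.neg F, fun v => by
  rw [q2_apply, q2_apply]
  simp⟩

lemma neg2_apply (u : Fin 2 → F) : (neg2 F).1 u = -u := rfl

lemma rot_sq (h2 : (2 : F) ≠ 0) (r : R2 F) (h : dt r.1 = 1) (hr : r * r = 1) : r = 1 ∨ r = neg2 F := by
  obtain ⟨a, b, c⟩ := orth h2 r
  unfold dt at h
  have h1 : r.1 (f1 F) 0 = -r.1 (f0 F) 1 := by
    linear_combination (-r.1 (f1 F) 0) * a + (r.1 (f0 F) 0) * c - (r.1 (f0 F) 1) * h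
  have h3 : r.1 (f1 F) 1 = r.1 (f0 F) 0 := by
    linear_combination (-r.1 (f1 F) 1) * a + (r.1 (f0 F) 1) * c + (r.1 (f0 F) 0) * h
  have h4 : r.1 (r.1 (f0 F)) = f0 F := by
    have := congrArg (fun s : R2 F => s.1 (f0 F)) hr
    exact this
  rw [r_apply r.1 (r.1 (f0 F))] at h4
  have h5 := congrFun h4 0
  simp only [Pi.add_apply, Pi.smul_apply, smul_eq_mul, h1] at h5
  have h6 : (f0 F) 0 = 1 := rfl
  rw [h6] at h5
  have hb : r.1 (f0 F) 1 = 0 := by
    have : 2 * (r.1 (f0 F) 1 * r.1 (f0 F) 1) = 0 := by linear_combination a - h5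
    rcases mul_eq_zero.1 this with h | h
    · exact absurd h h2
    · exact mul_self_eq_zero.1 h
  rw [hb, mul_zero, add_zero] at a
  rcases mul_self_eq_one_iff.1 a with h7 | h7
  · left
    apply Subtype.ext
    apply LinearEquiv.ext
    intro u
    rw [r_apply]
    funext i
    fin_cases i
    · simp [h7, h1, hb]
    · simp [h7, h3, hb]
  · right
    apply Subtype.ext
    apply LinearEquiv.ext
    intro u
    rw [r_apply, neg2_apply]
    funext i
    fin_cases i
    · simp [h7, h1, hb]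
    · simp [h7, h3, hb]

end CfsgLib.SOm
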