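import Cfsg.Agent.LibSOm10

set_option autoImplicit false

/-! `SO_4^+(q)`, `q` odd: the Sylow `2`-subgroup (lead). -/

namespace CfsgLib.SOm

open Cfsg.Agent.H22 Module Equiv

variable {F : Type*} [Field F]

lemma dt_inv_conj (h2 : (2 : F) ≠ 0) (h r : R2 F) : dt ((h * r * h⁻¹ : R2 F) : (Fin 2 → F) ≃ₗ[F] (Fin 2 → F)) = dt r.1 := by
  have : dt ((h * r * h⁻¹ : R2 F) : (Fin 2 → F) ≃ₗ[F] (Fin 2 → F)) * dt h.1 = dt h.1 * dt r.1 := by
    rw [← dt_mul, ← dt_mul, ← Subgroup.coe_mul, ← Subgroup.coe_mul, inv_mul_cancel_right]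
  rw [mul_comm (dt h.1)] at this
  have hne : dt h.1 ≠ 0 := by
    intro h0
    have := dt_sq h2 h
    rw [h0, mul_zero] at this
    exact zero_ne_one this
  exact mul_right_cancel₀ hne this

lemma exists_conj_mem [Fintype F] (DS : Sylow 2 (R2 F)) (r : R2 F) (hr : r * r = 1) : ∃ h : R2 F, h * r * h⁻¹ ∈ DS.toSubgroup := by
  have hfin2 : Finite (R2 F) := finite_O _
  have hprime : Fact (Nat.Prime 2) := ⟨Nat.prime_two⟩
  have hp : IsPGroup 2 (Subgroup.zpowers r) := by
    apply IsPGroup.of_card (n := padicValNat 2 (Nat.card (Subgroup.zpowers r)))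
    have hdvd : Nat.card (Subgroup.zpowers r) ∣ 2 := by
      rw [Nat.card_zpowers]
      exact orderOf_dvd_of_pow_eq_one (by rw [pow_two]; exact hr)
    rcases (Nat.dvd_prime Nat.prime_two).1 hdvd with h | h
    · rw [h]; simp
    · rw [h]; simp
  obtain ⟨S, hS⟩ := hp.exists_le_sylow
  obtain ⟨g, hg⟩ := MulAction.exists_smul_eq (R2 F) S DS
  refine ⟨g, ?_⟩
  have h1 : r ∈ (S : Subgroup (R2 F)) := hS (Subgroup.mem_zpowers r)
  rw [← hg]
  exact ⟨r, h1, rfl⟩

lemma vv_ge (q : ℕ) (hq : Odd q) (h1 : 1 < q) : 3 ≤ vv q := by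
  have : Fact (Nat.Prime 2) := ⟨Nat.prime_two⟩
  have h := val_sq hq h1 0
  rw [show 2 * (0 + 1) = 2 by norm_num, padicValNat_one_right, add_zero] at h
  rw [← h]
  have h3 : q ^ 2 - 1 ≠ 0 := by
    have := Nat.one_lt_pow (n := 2) (by norm_num) h1
    omega
  rw [← padicValNat_dvd_iff_le h3]
  obtain ⟨r, rfl⟩ := hq
  have : (2 * r + 1) ^ 2 - 1 = 4 * (r * (r + 1)) := by
    have : (2 * r + 1) ^ 2 = 4 * (r * (r + 1)) + 1 := by ring
    omega
  rw [this]
  obtain ⟨s, hs⟩ := Nat.even_mul_succ_self r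
  exact ⟨s, by rw [hs]; ring⟩

/-- the negative of the identity of the whole space -/
noncomputable def mz (F : Type*) [Field F] : OGrp (QV (k := 2) (l := 0) (F := F) ![]) := bet _ (fun _ => neg2 F)

lemma neg2_comm (r : R2 F) : neg2 F * r = r * neg2 F := by
  apply Subtype.ext
  apply LinearEquiv.ext
  intro u
  change -(r.1 u) = r.1 (-u)
  rw [map_neg]

lemma dt_neg2 : dt (neg2 F).1 = 1 := by
  simp [dt, neg2_apply, f0, f1]

lemma bet_inj {k l : ℕ} (d : Fin l → F) : Function.Injective (bet (k := k) d) := by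
  intro f g h
  funext i
  apply Subtype.ext
  apply LinearEquiv.ext
  intro u
  have h1 := congrArg (fun s : OGrp (QV (k := k) d) => (s.1 (fun _ => u, 0)).1 i) h
  exact h1

theorem sez_so4 [Fintype F] (hF : Odd (Fintype.card F)) (hm : mz F ∈ (detO (QV (k := 2) (l := 0) (F := F) ![])).ker) :
    SEz (detO (QV (k := 2) (l := 0) (F := F) ![])).ker ⟨mz F, hm⟩ := by
  classical
  have h2 := two_ne hF
  have h1 : 1 < Fintype.card F := Fintype.one_lt_card
  have hfin : Finite (OGrp (QV (k := 2) (l := 0) (F := F) ![])) := finite_O _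
  have hfin2 : Finite (R2 F) := finite_O _
  have hprime : Fact (Nat.Prime 2) := ⟨Nat.prime_two⟩
  set d : Fin 0 → F := ![] with hd
  obtain ⟨T, hTc, hTg⟩ := exists_T 2
  let DS : Sylow 2 (R2 F) := default
  set D : Subgroup (R2 F) := DS.toSubgroup with hDdef
  have hDc : Nat.card D = 2 ^ padicValNat 2 (Nat.card (R2 F)) := by
    rw [← Nat.factorization_def _ Nat.prime_two]
    exact DS.card_eq_multiplicity
  have hcard : padicValNat 2 (Nat.card (OGrp (QV (k := 2) d))) = 2 * padicValNat 2 (Nat.card (R2 F)) + 0 + padicValNat 2 (Nat.factorial 2) := by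
    obtain ⟨e⟩ := rep_plus1 h2 2 (negM_even h2 2 ⟨1, rfl⟩)
    have hmod : Fintype.card F ^ (1 + 1) % 4 = 1 := by
      rcases pow_mod hF 1 with h | h
      · rw [pow_one] at h
        rw [Nat.pow_mod, h]
      · rw [pow_one] at h
        rw [Nat.pow_mod, h]
    have := val_plus1 hF h1 (1 + 1) (by omega) hmod ((1 + 1) * 1)
    rw [Nat.add_sub_cancel] at this
    rw [Nat.card_congr e.toEquiv, card_O_plus 1, this, val_R2 hF, add_zero]
  have hPc : Nat.card (PH d D T) = 2 ^ padicValNat 2 (Nat.card (OGrp (QV (k := 2) d))) := by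
    rw [card_PH d h2, hDc, hTc, hcard, Nat.card_eq_fintype_card (α := Fin 2), Fintype.card_fin, ← pow_mul, ← pow_add, ← pow_add]
    congr 1
    ring
  -- T = ⊤
  have hT2 : Nat.card T = 2 := by
    rw [hTc, Nat.card_eq_fintype_card, Fintype.card_fin]
    norm_num
  have hTtop : T = ⊤ := by
    apply Subgroup.eq_top_of_card_eq
    rw [hT2, Nat.card_perm]
    simp
  obtain ⟨h0, hh0⟩ := exists_conj_mem DS (csw F) (sq_of_dt h2 _ dt_csw)
  set r0 : R2 F := h0 * csw F * h0⁻¹ with hr0
  have hr0d : dt r0.1 = -1 := by rw [hr0, dt_inv_conj h2, dt_csw]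
  have hr0D : r0 ∈ D := hh0
  -- a rotation of order > 2
  have hrho : ∃ ρ ∈ D, dt ρ.1 = 1 ∧ ρ * ρ ≠ 1 := by
    by_contra hcon
    push Not at hcon
    have hle : Nat.card D ≤ 4 := by
      have hsub : (D : Set (R2 F)) ⊆ ({1, neg2 F, r0, neg2 F * r0} : Set (R2 F)) := by
        intro x hx
        rcases dt_cases h2 x with h | h
        · rcases rot_sq h2 x h (hcon x hx h) with h | h
          · left; exact h
          · right; left; exact h
        · have hdx : dt ((x * r0⁻¹ : R2 F) : (Fin 2 → F) ≃ₗ[F] (Fin 2 → F)) = 1 := by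
            have : dt ((x * r0⁻¹ : R2 F) : (Fin 2 → F) ≃ₗ[F] (Fin 2 → F)) * dt r0.1 = dt x.1 := by
              rw [← dt_mul, ← Subgroup.coe_mul, inv_mul_cancel_right]
            rw [h, hr0d] at this
            linear_combination -this
          rcases rot_sq h2 _ hdx (hcon _ (D.mul_mem hx (D.inv_mem hr0D)) hdx) with h | h
          · right; right; left
            rw [mul_inv_eq_one] at h
            exact h
          · right; right; right
            rw [mul_inv_eq_iff_eq_mul] at h
            exact h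
      calc Nat.card D = Set.ncard (D : Set (R2 F)) := rfl
        _ ≤ Set.ncard ({1, neg2 F, r0, neg2 F * r0} : Set (R2 F)) := Set.ncard_le_ncard hsub (Set.toFinite _)
        _ ≤ 4 := by
          refine (Set.ncard_insert_le _ _).trans ?_
          have h3 := Set.ncard_insert_le (neg2 F) ({r0, neg2 F * r0} : Set (R2 F))
          have h4 := Set.ncard_insert_le r0 ({neg2 F * r0} : Set (R2 F))
          have h5 := Set.ncard_singleton (neg2 F * r0)
          omega
    rw [hDc, val_R2 hF] at hle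
    have := Nat.pow_le_pow_right (n := 2) (by norm_num) (vv_ge _ hF h1)
    omega
  obtain ⟨ρ, hρD, hρ1, hρ2⟩ := hrho
  have hρne : ρ ≠ 1 := by
    rintro rfl
    exact hρ2 (mul_one 1)
  let i0 : Fin 2 := 0
  let i1 : Fin 2 := 1
  have h01 : i1 ≠ i0 := by decide
  set Ω := (detO (QV (k := 2) (l := 0) (F := F) d)).ker with hΩ
  have hcomΩ : commutator (OGrp (QV (k := 2) d)) ≤ Ω := fun x hx => (mem_detO _ x).2 (det_comm d x hx)
  have hkey := key Ω i0 i1 h01 (emb d) (fun i hi a b => emb_comm d i i0 hi a b) D (D_le h2 D r0 hr0D hr0d)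
      (fun e he hem => ⟨r0, hr0D, sq_of_dt h2 _ hr0d, conj_of_dt h2 _ _ hr0d (by
        have h3 := (mem_detO _ _).1 hem
        rw [emb_eq, det_bet, Finset.prod_eq_single i0] at h3
        · rwa [Pi.mulSingle_eq_same] at h3
        · intro j _ hj
          rw [Pi.mulSingle_eq_of_ne hj]
          exact dt_one
        · intro h
          exact absurd (Finset.mem_univ i0) h)⟩)
      (fun i r _ => hcomΩ (emb_mem d i i0 r)) {g | ∃ j, g = sgn d (Pi.mulSingle j (-1))}
      (by rintro _ ⟨j, rfl⟩; exact j.elim0)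
      {g | ∃ t ∈ T, t * t = 1 ∧ g = tau d t} (by
        rintro _ ⟨t, ht, ht2, rfl⟩
        refine ⟨?_, hcomΩ (tau_mem d t)⟩
        rw [← map_mul, ht2, map_one]) (PH d D T) (PH_closure d D T hTg)
  have hPp : IsPGroup 2 (PH d D T) := IsPGroup.of_card hPc
  have hPi : ¬ 2 ∣ (PH d D T).index := by
    intro hdvd
    have h1 := (PH d D T).card_mul_index
    have h3 : 2 ^ (padicValNat 2 (Nat.card (OGrp (QV (k := 2) d))) + 1) ∣ Nat.card (OGrp (QV (k := 2) d)) := by
      rw [pow_succ]
      conv_rhs => rw [← h1, hPc]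
      exact mul_dvd_mul_left _ hdvd
    have hpos : Nat.card (OGrp (QV (k := 2) d)) ≠ 0 := Nat.card_pos.ne'
    rw [padicValNat_dvd_iff_le hpos] at h3
    omega
  -- neg2 ∈ D
  have hnegD : neg2 F ∈ D := by
    obtain ⟨h, hh⟩ := exists_conj_mem DS (neg2 F) (by
      apply Subtype.ext
      apply LinearEquiv.ext
      intro u
      change - -u = u
      rw [neg_neg])
    rw [← neg2_comm, mul_inv_cancel_right] at hh
    exact hh
  have hdet : ∀ f : Fin 2 → R2 F, bet d f ∈ Ω ↔ dt (f 0).1 * dt (f 1).1 = 1 := by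
    intro f
    rw [hΩ, mem_detO, det_bet, Fin.prod_univ_two]
  have hbP : ∀ f : Fin 2 → R2 F, (∀ i, f i ∈ D) → bet d f ∈ PH d D T := fun f hf =>
    ⟨f, hf, 1, 1, T.one_mem, by simp⟩
  refine ⟨(PH d D T).subgroupOf Ω, hPp.comap_subtype, ?_, ?_, ?_, ?_, ?_⟩
  · intro h2
    exact hPi (h2.trans (relIndex_dvd (PH d D T) Ω))
  · intro x hx
    have h1 := hkey x ⟨hx, x.2⟩
    have e : ⁅(PH d D T).subgroupOf Ω, (PH d D T).subgroupOf Ω⁆.map Ω.subtype = ⁅(PH d D T) ⊓ Ω, (PH d D T) ⊓ Ω⁆ := by
      rw [Subgroup.map_commutator, Subgroup.subgroupOf_map_subtype]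
    rw [← e] at h1
    obtain ⟨y, hy, hyx⟩ := h1
    have : y = x ^ 2 := Subtype.ext hyx
    rwa [← this]
  · exact hbP _ (fun _ => hnegD)
  · rintro y ⟨f, hf, e, π, hπ, hy⟩
    apply Subtype.ext
    change mz F * (y : OGrp (QV (k := 2) d)) = (y : OGrp (QV (k := 2) d)) * mz F
    apply og_ext'
    intro v
    have : ∀ w, (mz F).1 w = -w := by
      intro w
      apply Prod.ext
      · rfl
      · exact Subsingleton.elim _ _
    change (mz F).1 ((y : OGrp (QV (k := 2) d)).1 v) = (y : OGrp (QV (k := 2) d)).1 ((mz F).1 v)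
    rw [this, this, map_neg]
  · intro x hx hcomm
    obtain ⟨f, hf, e, π, hπ, hx'⟩ := hx
    change (x : OGrp (QV (k := 2) d)) = _ at hx'
    have he : e = 1 := Subsingleton.elim _ _
    rw [he, map_one, mul_one] at hx'
    have hc : ∀ y ∈ PH d D T, y ∈ Ω → (x : OGrp (QV (k := 2) d)) * y = y * (x : OGrp (QV (k := 2) d)) := fun y hy hyΩ =>
      congrArg Subtype.val (hcomm ⟨y, hyΩ⟩ hy)
    have hxv : ∀ v, (x : OGrp (QV (k := 2) d)).1 v = (fun i => (f i).1 (v.1 (π.symm i)), v.2) := by
      intro v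
      rw [hx']
      rfl
    -- π = 1
    have hπ1 : π = 1 := by
      by_contra hne
      have hπ0 : π.symm 1 = 0 := by
        by_contra h
        apply hne
        have h1 : π.symm 1 = 1 := by
          have : ∀ a : Fin 2, a ≠ 0 → a = 1 := by decide
          exact this _ h
        have h3 : π 1 = 1 := by rw [← h1, Equiv.apply_symm_apply, h1]
        have h4 : π 0 = 0 := by
          have : ∀ a : Fin 2, a ≠ 1 → a = 0 := by decide
          apply this
          intro h5
          rw [← h3] at h5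
          exact absurd (π.injective h5) (by decide)
        apply Equiv.ext
        intro a
        fin_cases a
        · exact h4
        · exact h3
      have hy := hc (bet d ![ρ, 1]) (hbP _ (fun i => by fin_cases i; exacts [hρD, D.one_mem])) ((hdet _).2 (by
        simp only [Matrix.cons_val_zero, Matrix.cons_val_one]
        rw [hρ1, one_mul]
        exact dt_one))
      apply hρne
      apply Subtype.ext
      apply LinearEquiv.ext
      intro u
      have h3 := congrArg (fun s : OGrp (QV (k := 2) d) => (s.1 (![u, 0], 0)).1 1) hy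
      change ((x : OGrp (QV (k := 2) d)).1 ((bet d ![ρ, 1]).1 (![u, 0], 0))).1 1 = ((bet d ![ρ, 1]).1 ((x : OGrp (QV (k := 2) d)).1 (![u, 0], 0))).1 1 at h3
      rw [hxv, hxv, bet_apply, bet_apply] at h3
      simp only [hπ0, Matrix.cons_val_zero, Matrix.cons_val_one] at h3
      exact (f 1).1.injective h3
    rw [hπ1, map_one, mul_one] at hx'
    -- f commutes with D
    have hcr : ∀ r ∈ D, ∀ i, f i * r = r * f i := by
      intro r hr i
      have hy := hc (bet d (fun _ => r)) (hbP _ (fun _ => hr)) ((hdet _).2 (dt_sq h2 r))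
      rw [hx', ← map_mul, ← map_mul] at hy
      exact congrFun (bet_inj d hy) i
    have hf01 : f 1 = f 0 := by
      have hy := hc (tau d (Equiv.swap 0 1)) ⟨1, fun _ => D.one_mem, 1, Equiv.swap 0 1, by rw [hTtop]; exact Subgroup.mem_top _, by simp⟩
        (hcomΩ (tau_mem d _))
      rw [hx', tau_bet] at hy
      have := congrFun (bet_inj d (mul_right_cancel hy)) 1
      simpa using this
    have hf0 : f 0 = 1 ∨ f 0 = neg2 F := by
      rcases dt_cases h2 (f 0) with h | h
      · apply rot_sq h2 _ h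
        have h3 := conj_of_dt h2 r0 (f 0) hr0d h
        have h4 := hcr r0 hr0D 0
        have h5 : r0 * (f 0)⁻¹ * r0⁻¹ = (f 0)⁻¹ := by
          have : (f 0)⁻¹ * r0 = r0 * (f 0)⁻¹ := by
            rw [inv_mul_eq_iff_eq_mul, ← mul_assoc, h4, mul_inv_cancel_right]
          rw [← this, mul_inv_cancel_right]
        rw [h5] at h3
        rw [mul_eq_one_iff_eq_inv]
        exact h3.symm
      · exfalso
        have h3 := conj_of_dt h2 (f 0) ρ h hρ1
        have h4 := hcr ρ hρD 0
        have h5 : (f 0) * ρ⁻¹ * (f 0)⁻¹ = ρ⁻¹ := by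
          have : ρ⁻¹ * (f 0) = (f 0) * ρ⁻¹ := by
            rw [inv_mul_eq_iff_eq_mul, ← mul_assoc, ← h4, mul_inv_cancel_right]
          rw [← this, mul_inv_cancel_right]
        rw [h5] at h3
        apply hρ2
        rw [mul_eq_one_iff_eq_inv]
        exact h3.symm
    have hff : f = fun _ => f 0 := by
      funext i
      fin_cases i
      · rfl
      · exact hf01
    rcases hf0 with h | h
    · left
      apply Subtype.ext
      rw [hx', hff, h]
      exact map_one _
    · right
      apply Subtype.ext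
      rw [hx', hff, h]
      rfl

end CfsgLib.SOm
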