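import Cfsg.Agent.LibSOm11
import Cfsg.Prelude.Def_G2

set_option autoImplicit false

/-! Split octonions as pairs of `2 × 2` matrices; the centralizer of an involution in `G_2` (lead). -/

namespace CfsgLib.SOm

open Cfsg.Agent.H22 Module Equiv Matrix

variable {F : Type*} [Field F]

abbrev M2 (F : Type*) := Matrix (Fin 2) (Fin 2) F

/-- the product -/
def om (a b : M2 F × M2 F) : M2 F × M2 F := (b.1 * a.1 - a.2 * adjugate b.2, a.1 * b.2 + adjugate b.1 * a.2)

/-- coordinates -/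
def th : (Fin 8 → F) ≃ₗ[F] (M2 F × M2 F) where
  toFun x := (!![x 0, x 4; x 1, x 7], !![x 2, x 3; x 6, -x 5])
  invFun a := ![a.1 0 0, a.1 1 0, a.2 0 0, a.2 0 1, a.1 0 1, -a.2 1 1, a.2 1 0, a.1 1 1]
  map_add' x y := by
    apply Prod.ext
    · ext i j; fin_cases i <;> fin_cases j <;> simp
    · ext i j; fin_cases i <;> fin_cases j <;> simp; ring
  map_smul' c x := by
    apply Prod.ext
    · ext i j; fin_cases i <;> fin_cases j <;> simp
    · ext i j; fin_cases i <;> fin_cases j <;> simp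
  left_inv x := by
    funext i
    fin_cases i <;> simp
  right_inv a := by
    apply Prod.ext
    · ext i j; fin_cases i <;> fin_cases j <;> simp
    · ext i j; fin_cases i <;> fin_cases j <;> simp

lemma th_apply (x : Fin 8 → F) : th x = (!![x 0, x 4; x 1, x 7], !![x 2, x 3; x 6, -x 5]) := rfl

lemma th_mul (x y : Fin 8 → F) : th (Cfsg.Lie.zornMul x y) = om (th x) (th y) := by
  rw [th_apply, th_apply, th_apply]
  apply Prod.ext
  · ext i j
    fin_cases i <;> fin_cases j <;>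
      simp [om, Cfsg.Lie.zornMul, Cfsg.Lie.dot3, Cfsg.Lie.cross3, Matrix.mul_apply, Fin.sum_univ_two, Matrix.adjugate_fin_two] <;> ring
  · ext i j
    fin_cases i <;> fin_cases j <;>
      simp [om, Cfsg.Lie.zornMul, Cfsg.Lie.dot3, Cfsg.Lie.cross3, Matrix.mul_apply, Fin.sum_univ_two, Matrix.adjugate_fin_two] <;> ring

/-- automorphisms -/
def AutW (F : Type*) [Field F] : Subgroup ((M2 F × M2 F) ≃ₗ[F] (M2 F × M2 F)) where
  carrier := {g | ∀ a b, g (om a b) = om (g a) (g b)}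
  mul_mem' {g h} hg hh a b := by
    change g (h (om a b)) = om (g (h a)) (g (h b))
    rw [hh, hg]
  one_mem' a b := rfl
  inv_mem' {g} hg a b := by
    apply g.injective
    change g (g.symm (om a b)) = g (om (g.symm a) (g.symm b))
    rw [hg, LinearEquiv.apply_symm_apply, LinearEquiv.apply_symm_apply, LinearEquiv.apply_symm_apply]

/-- `G_2` -/
noncomputable def g2Equiv : Cfsg.Lie.G2 F ≃* AutW F where
  toFun g := ⟨(th.symm.trans (glLin (g : GL (Fin 8) F))).trans th, fun a b => by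
    change th (glLin (g : GL (Fin 8) F) (th.symm (om a b))) = om (th (glLin (g : GL (Fin 8) F) (th.symm a))) (th (glLin (g : GL (Fin 8) F) (th.symm b)))
    have h1 : th.symm (om a b) = Cfsg.Lie.zornMul (th.symm a) (th.symm b) := by
      apply th.injective
      rw [th_mul, LinearEquiv.apply_symm_apply, LinearEquiv.apply_symm_apply, LinearEquiv.apply_symm_apply]
    rw [h1, ← th_mul]
    congr 1
    exact g.2 _ _⟩
  invFun g := ⟨glLin.symm ((th.trans g.1).trans th.symm), fun x y => by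
    have h : ∀ x, ((Units.coeHom (Matrix (Fin 8) (Fin 8) F)) (glLin.symm ((th.trans g.1).trans th.symm))) *ᵥ x = th.symm (g.1 (th x)) :=
      fun x => glLin_symm_mulVec _ x
    rw [h, h, h, th_mul, g.2]
    apply th.injective
    rw [th_mul, LinearEquiv.apply_symm_apply, LinearEquiv.apply_symm_apply, LinearEquiv.apply_symm_apply]⟩
  left_inv g := by
    apply Subtype.ext
    change glLin.symm _ = (g : GL (Fin 8) F)
    rw [MulEquiv.symm_apply_eq]
    apply LinearEquiv.ext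
    intro x
    change th.symm (th (glLin (g : GL (Fin 8) F) (th.symm (th x)))) = _
    rw [LinearEquiv.symm_apply_apply, LinearEquiv.symm_apply_apply]
  right_inv g := by
    apply Subtype.ext
    apply LinearEquiv.ext
    intro x
    change th (glLin (glLin.symm ((th.trans g.1).trans th.symm)) (th.symm x)) = g.1 x
    rw [MulEquiv.apply_symm_apply]
    change th (th.symm (g.1 (th (th.symm x)))) = g.1 x
    rw [LinearEquiv.apply_symm_apply, LinearEquiv.apply_symm_apply]
  map_mul' g h := by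
    apply Subtype.ext
    apply LinearEquiv.ext
    intro x
    change th (glLin ((g : GL (Fin 8) F) * (h : GL (Fin 8) F)) (th.symm x)) = th (glLin (g : GL (Fin 8) F) (th.symm (th (glLin (h : GL (Fin 8) F) (th.symm x)))))
    rw [map_mul, LinearEquiv.symm_apply_apply]
    rfl

/-- pairs of equal determinant -/
def GG (F : Type*) [Field F] : Subgroup (GL (Fin 2) F × GL (Fin 2) F) where
  carrier := {p | (p.1 : M2 F).det = (p.2 : M2 F).det}
  mul_mem' {p q} hp hq := by
    change ((p.1 * q.1 : GL (Fin 2) F) : M2 F).det = ((p.2 * q.2 : GL (Fin 2) F) : M2 F).det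
    rw [Units.val_mul, Units.val_mul, det_mul, det_mul, hp, hq]
  one_mem' := rfl
  inv_mem' {p} hp := by
    change ((p.1⁻¹ : GL (Fin 2) F) : M2 F).det = ((p.2⁻¹ : GL (Fin 2) F) : M2 F).det
    have h1 : ∀ g : GL (Fin 2) F, ((g⁻¹ : GL (Fin 2) F) : M2 F).det * (g : M2 F).det = 1 := fun g => by
      rw [← det_mul, ← Units.val_mul, inv_mul_cancel, Units.val_one, det_one]
    have h2 := h1 p.1
    have h3 := h1 p.2
    have h4 : (p.1 : M2 F).det = (p.2 : M2 F).det := hp
    rw [h4] at h2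
    have h5 : (p.2 : M2 F).det ≠ 0 := by
      intro h
      rw [h, mul_zero] at h3
      exact zero_ne_one h3
    exact mul_right_cancel₀ h5 (h2.trans h3.symm)

/-- two-sided multiplication -/
def lr (a b : GL (Fin 2) F) : M2 F ≃ₗ[F] M2 F where
  toFun Y := (a : M2 F) * Y * ((b⁻¹ : GL (Fin 2) F) : M2 F)
  invFun Y := ((a⁻¹ : GL (Fin 2) F) : M2 F) * Y * (b : M2 F)
  map_add' x y := by rw [mul_add, add_mul]
  map_smul' c x := by simp
  left_inv Y := by
    have h1 : ((a⁻¹ : GL (Fin 2) F) : M2 F) * (a : M2 F) = 1 := by rw [← Units.val_mul, inv_mul_cancel, Units.val_one]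
    have h2 : ((b⁻¹ : GL (Fin 2) F) : M2 F) * (b : M2 F) = 1 := by rw [← Units.val_mul, inv_mul_cancel, Units.val_one]
    calc ((a⁻¹ : GL (Fin 2) F) : M2 F) * ((a : M2 F) * Y * ((b⁻¹ : GL (Fin 2) F) : M2 F)) * (b : M2 F)
        = (((a⁻¹ : GL (Fin 2) F) : M2 F) * (a : M2 F)) * Y * (((b⁻¹ : GL (Fin 2) F) : M2 F) * (b : M2 F)) := by noncomm_ring
      _ = Y := by rw [h1, h2, one_mul, mul_one]
  right_inv Y := by
    have h1 : (a : M2 F) * ((a⁻¹ : GL (Fin 2) F) : M2 F) = 1 := by rw [← Units.val_mul, mul_inv_cancel, Units.val_one]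
    have h2 : (b : M2 F) * ((b⁻¹ : GL (Fin 2) F) : M2 F) = 1 := by rw [← Units.val_mul, mul_inv_cancel, Units.val_one]
    calc (a : M2 F) * (((a⁻¹ : GL (Fin 2) F) : M2 F) * Y * (b : M2 F)) * ((b⁻¹ : GL (Fin 2) F) : M2 F)
        = ((a : M2 F) * ((a⁻¹ : GL (Fin 2) F) : M2 F)) * Y * ((b : M2 F) * ((b⁻¹ : GL (Fin 2) F) : M2 F)) := by noncomm_ring
      _ = Y := by rw [h1, h2, one_mul, mul_one]

lemma lr_apply (a b : GL (Fin 2) F) (Y : M2 F) : lr a b Y = (a : M2 F) * Y * ((b⁻¹ : GL (Fin 2) F) : M2 F) := rfl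

lemma lr_mul (a b a' b' : GL (Fin 2) F) (Y : M2 F) : lr (a * a') (b * b') Y = lr a b (lr a' b' Y) := by
  rw [lr_apply, lr_apply, lr_apply, _root_.mul_inv_rev, Units.val_mul, Units.val_mul]
  noncomm_ring

lemma adj_inv (b : GL (Fin 2) F) : adjugate ((b⁻¹ : GL (Fin 2) F) : M2 F) = (b : M2 F).det⁻¹ • (b : M2 F) := by
  have h1 : (b : M2 F).det ≠ 0 := by
    intro h
    have := congrArg Matrix.det (show (b : M2 F) * ((b⁻¹ : GL (Fin 2) F) : M2 F) = 1 by rw [← Units.val_mul, mul_inv_cancel, Units.val_one])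
    rw [det_mul, h, zero_mul, det_one] at this
    exact zero_ne_one this
  have h2 : ((b⁻¹ : GL (Fin 2) F) : M2 F) = (b : M2 F).det⁻¹ • adjugate (b : M2 F) := by
    have h3 : (b : M2 F) * ((b : M2 F).det⁻¹ • adjugate (b : M2 F)) = 1 := by
      rw [Matrix.mul_smul, mul_adjugate, smul_smul, inv_mul_cancel₀ h1, one_smul]
    calc ((b⁻¹ : GL (Fin 2) F) : M2 F) = ((b⁻¹ : GL (Fin 2) F) : M2 F) * ((b : M2 F) * ((b : M2 F).det⁻¹ • adjugate (b : M2 F))) := by rw [h3, mul_one]
      _ = (((b⁻¹ : GL (Fin 2) F) : M2 F) * (b : M2 F)) * ((b : M2 F).det⁻¹ • adjugate (b : M2 F)) := by rw [mul_assoc]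
      _ = _ := by rw [← Units.val_mul, inv_mul_cancel, Units.val_one, one_mul]
  rw [h2]
  ext i j
  fin_cases i <;> fin_cases j <;> simp [Matrix.adjugate_fin_two]

/-- the automorphisms -/
noncomputable def PhiW : GG F →* AutW F where
  toFun p := ⟨LinearEquiv.prodCongr (lr p.1.1 p.1.1) (lr p.1.1 p.1.2), by
    intro x y
    obtain ⟨⟨a, b⟩, hab⟩ := p
    have hab' : (a : M2 F).det = (b : M2 F).det := hab
    have hb : (b : M2 F).det ≠ 0 := by
      intro h
      have := congrArg Matrix.det (show (b : M2 F) * ((b⁻¹ : GL (Fin 2) F) : M2 F) = 1 by rw [← Units.val_mul, mul_inv_cancel, Units.val_one])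
      rw [det_mul, h, zero_mul, det_one] at this
      exact zero_ne_one this
    have h1 : ((a⁻¹ : GL (Fin 2) F) : M2 F) * (a : M2 F) = 1 := by rw [← Units.val_mul, inv_mul_cancel, Units.val_one]
    have h2 : ((b⁻¹ : GL (Fin 2) F) : M2 F) * (b : M2 F) = 1 := by rw [← Units.val_mul, inv_mul_cancel, Units.val_one]
    have hadj : ∀ Y : M2 F, adjugate (lr a b Y) = lr b a (adjugate Y) := by
      intro Y
      rw [lr_apply, lr_apply, adjugate_mul_distrib, adjugate_mul_distrib, adj_inv]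
      have h3 : adjugate (a : M2 F) = (a : M2 F).det • ((a⁻¹ : GL (Fin 2) F) : M2 F) := by
        calc adjugate (a : M2 F) = (((a⁻¹ : GL (Fin 2) F) : M2 F) * (a : M2 F)) * adjugate (a : M2 F) := by rw [h1, one_mul]
          _ = _ := by rw [mul_assoc, mul_adjugate, Matrix.mul_smul, mul_one]
      rw [h3, hab', Matrix.mul_smul, Matrix.smul_mul, Matrix.mul_smul, smul_smul, inv_mul_cancel₀ hb, one_smul, mul_assoc]
    have hadj' : ∀ Y : M2 F, adjugate (lr a a Y) = lr a a (adjugate Y) := by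
      intro Y
      have hb : (a : M2 F).det ≠ 0 := by rw [hab']; exact hb
      rw [lr_apply, lr_apply, adjugate_mul_distrib, adjugate_mul_distrib, adj_inv]
      have h3 : adjugate (a : M2 F) = (a : M2 F).det • ((a⁻¹ : GL (Fin 2) F) : M2 F) := by
        calc adjugate (a : M2 F) = (((a⁻¹ : GL (Fin 2) F) : M2 F) * (a : M2 F)) * adjugate (a : M2 F) := by rw [h1, one_mul]
          _ = _ := by rw [mul_assoc, mul_adjugate, Matrix.mul_smul, mul_one]
      rw [h3, Matrix.mul_smul, Matrix.smul_mul, Matrix.mul_smul, smul_smul, inv_mul_cancel₀ hb, one_smul, mul_assoc]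
    change (lr a a (om x y).1, lr a b (om x y).2) = om (lr a a x.1, lr a b x.2) (lr a a y.1, lr a b y.2)
    apply Prod.ext
    · simp only [om]
      rw [hadj, map_sub]
      simp only [lr_apply]
      calc (a : M2 F) * (y.1 * x.1) * ((a⁻¹ : GL (Fin 2) F) : M2 F) - (a : M2 F) * (x.2 * adjugate y.2) * ((a⁻¹ : GL (Fin 2) F) : M2 F)
          = (a : M2 F) * y.1 * 1 * x.1 * ((a⁻¹ : GL (Fin 2) F) : M2 F) - (a : M2 F) * x.2 * 1 * adjugate y.2 * ((a⁻¹ : GL (Fin 2) F) : M2 F) := by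
            rw [mul_one, mul_one]; noncomm_ring
        _ = (a : M2 F) * y.1 * (((a⁻¹ : GL (Fin 2) F) : M2 F) * (a : M2 F)) * x.1 * ((a⁻¹ : GL (Fin 2) F) : M2 F) - (a : M2 F) * x.2 * (((b⁻¹ : GL (Fin 2) F) : M2 F) * (b : M2 F)) * adjugate y.2 * ((a⁻¹ : GL (Fin 2) F) : M2 F) := by rw [h1, h2]
        _ = _ := by noncomm_ring
    · simp only [om]
      rw [hadj', map_add]
      simp only [lr_apply]
      calc (a : M2 F) * (x.1 * y.2) * ((b⁻¹ : GL (Fin 2) F) : M2 F) + (a : M2 F) * (adjugate y.1 * x.2) * ((b⁻¹ : GL (Fin 2) F) : M2 F)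
          = (a : M2 F) * x.1 * 1 * y.2 * ((b⁻¹ : GL (Fin 2) F) : M2 F) + (a : M2 F) * adjugate y.1 * 1 * x.2 * ((b⁻¹ : GL (Fin 2) F) : M2 F) := by
            rw [mul_one, mul_one]; noncomm_ring
        _ = (a : M2 F) * x.1 * (((a⁻¹ : GL (Fin 2) F) : M2 F) * (a : M2 F)) * y.2 * ((b⁻¹ : GL (Fin 2) F) : M2 F) + (a : M2 F) * adjugate y.1 * (((a⁻¹ : GL (Fin 2) F) : M2 F) * (a : M2 F)) * x.2 * ((b⁻¹ : GL (Fin 2) F) : M2 F) := by rw [h1]
        _ = _ := by noncomm_ring⟩
  map_one' := by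
    apply Subtype.ext
    apply LinearEquiv.ext
    intro x
    change (lr 1 1 x.1, lr 1 1 x.2) = x
    rw [lr_apply, lr_apply]
    simp
  map_mul' p q := by
    apply Subtype.ext
    apply LinearEquiv.ext
    intro x
    change (lr (p.1.1 * q.1.1) (p.1.1 * q.1.1) x.1, lr (p.1.1 * q.1.1) (p.1.2 * q.1.2) x.2) = (lr p.1.1 p.1.1 (lr q.1.1 q.1.1 x.1), lr p.1.1 p.1.2 (lr q.1.1 q.1.2 x.2))
    rw [lr_mul, lr_mul]

lemma PhiW_apply (p : GG F) (x : M2 F × M2 F) : (PhiW p).1 x = (lr p.1.1 p.1.1 x.1, lr p.1.1 p.1.2 x.2) := rfl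

end CfsgLib.SOm
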