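import Cfsg.Agent.LibSOm12

set_option autoImplicit false

/-! The centralizer of an involution in `G_2`, and `SO_4^+` (lead). -/

namespace CfsgLib.SOm

open Cfsg.Agent.H22 Module Equiv Matrix

variable {F : Type*} [Field F]

/-- the determinant form -/
noncomputable def detQ (F : Type*) [Field F] : QuadraticForm F (M2 F) :=
  QuadraticMap.linMulLin (Matrix.entryLinearMap F F 0 0) (Matrix.entryLinearMap F F 1 1) -
    QuadraticMap.linMulLin (Matrix.entryLinearMap F F 0 1) (Matrix.entryLinearMap F F 1 0)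

lemma detQ_apply (Y : M2 F) : detQ F Y = Y.det := by
  rw [Matrix.det_fin_two]
  rfl

lemma polar_detQ (X Y : M2 F) : QuadraticMap.polar (detQ F) X Y = X 0 0 * Y 1 1 + X 1 1 * Y 0 0 - X 0 1 * Y 1 0 - X 1 0 * Y 0 1 := by
  simp only [QuadraticMap.polar, detQ_apply, Matrix.det_fin_two, Matrix.add_apply]
  ring

lemma det_ne (a : GL (Fin 2) F) : (a : M2 F).det ≠ 0 := by
  intro h
  have := congrArg Matrix.det (show (a : M2 F) * ((a⁻¹ : GL (Fin 2) F) : M2 F) = 1 by rw [← Units.val_mul, mul_inv_cancel, Units.val_one])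
  rw [det_mul, h, zero_mul, det_one] at this
  exact zero_ne_one this

lemma det_inv_mul (a : GL (Fin 2) F) : (a : M2 F).det * ((a⁻¹ : GL (Fin 2) F) : M2 F).det = 1 := by
  rw [← det_mul, ← Units.val_mul, mul_inv_cancel, Units.val_one, det_one]

/-- action on the second component -/
noncomputable def PsiW : GG F →* OGrp (detQ F) where
  toFun p := ⟨lr p.1.1 p.1.2, fun Y => by
    rw [detQ_apply, detQ_apply, lr_apply, det_mul, det_mul]
    have h1 : (p.1.1 : M2 F).det = (p.1.2 : M2 F).det := p.2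
    have h2 := det_inv_mul p.1.2
    rw [h1]
    linear_combination Y.det * h2⟩
  map_one' := by
    apply Subtype.ext
    apply LinearEquiv.ext
    intro x
    change lr 1 1 x = x
    rw [lr_apply]
    simp
  map_mul' p q := by
    apply Subtype.ext
    apply LinearEquiv.ext
    intro x
    change lr (p.1.1 * q.1.1) (p.1.2 * q.1.2) x = lr p.1.1 p.1.2 (lr q.1.1 q.1.2 x)
    rw [lr_mul]

lemma PsiW_apply (p : GG F) (x : M2 F) : (PsiW p).1 x = lr p.1.1 p.1.2 x := rfl

lemma ker_eq : (PhiW (F := F)).ker = PsiW.ker := by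
  ext p
  rw [MonoidHom.mem_ker, MonoidHom.mem_ker]
  constructor
  · intro h
    apply Subtype.ext
    apply LinearEquiv.ext
    intro Y
    have h1 := congrArg (fun g : AutW F => (g.1 (0, Y)).2) h
    exact h1
  · intro h
    have hY : ∀ Y, lr p.1.1 p.1.2 Y = Y := by
      intro Y
      have h1 := congrArg (fun g : OGrp (detQ F) => g.1 Y) h
      exact h1
    have h1 := hY 1
    rw [lr_apply, mul_one] at h1
    have h12 : p.1.1 = p.1.2 := by
      apply Units.ext
      calc (p.1.1 : M2 F) = (p.1.1 : M2 F) * (((p.1.2⁻¹ : GL (Fin 2) F) : M2 F) * (p.1.2 : M2 F)) := by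
            rw [← Units.val_mul, inv_mul_cancel, Units.val_one, mul_one]
        _ = ((p.1.1 : M2 F) * ((p.1.2⁻¹ : GL (Fin 2) F) : M2 F)) * (p.1.2 : M2 F) := by rw [mul_assoc]
        _ = _ := by rw [h1, one_mul]
    apply Subtype.ext
    apply LinearEquiv.ext
    intro x
    change (lr p.1.1 p.1.1 x.1, lr p.1.1 p.1.2 x.2) = x
    rw [hY]
    apply Prod.ext
    · have := hY x.1
      rw [← h12] at this
      exact this
    · rfl

/-- the involution -/
noncomputable def zG (F : Type*) [Field F] : GG F := ⟨(1, -1), by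
  change ((1 : GL (Fin 2) F) : M2 F).det = ((-1 : GL (Fin 2) F) : M2 F).det
  rw [Units.val_neg, Units.val_one, Matrix.det_neg]
  simp⟩

lemma zG_phi (x : M2 F × M2 F) : (PhiW (zG F)).1 x = (x.1, -x.2) := by
  rw [PhiW_apply, lr_apply, lr_apply]
  change (((1 : GL (Fin 2) F) : M2 F) * x.1 * (((1 : GL (Fin 2) F)⁻¹ : GL (Fin 2) F) : M2 F), ((1 : GL (Fin 2) F) : M2 F) * x.2 * (((-1 : GL (Fin 2) F)⁻¹ : GL (Fin 2) F) : M2 F)) = _
  rw [inv_one, Units.val_one, one_mul, mul_one, one_mul, inv_neg, inv_one, Units.val_neg, Units.val_one, mul_neg, mul_one]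

lemma zG_psi (x : M2 F) : (PsiW (zG F)).1 x = -x := by
  rw [PsiW_apply, lr_apply]
  change ((1 : GL (Fin 2) F) : M2 F) * x * (((-1 : GL (Fin 2) F)⁻¹ : GL (Fin 2) F) : M2 F) = _
  rw [Units.val_one, one_mul, inv_neg, inv_one, Units.val_neg, Units.val_one, mul_neg, mul_one]

/-- membership in the range -/
lemma mem_psi (g : OGrp (detQ F)) (A B : M2 F) (hAB : A.det * B.det = 1) (h : ∀ Y, g.1 Y = A * Y * B) : g ∈ (PsiW (F := F)).range := by
  have hA : A.det ≠ 0 := left_ne_zero_of_mul_eq_one hAB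
  have hB : B.det ≠ 0 := right_ne_zero_of_mul_eq_one hAB
  let a := Matrix.GeneralLinearGroup.mkOfDetNeZero A hA
  let b := Matrix.GeneralLinearGroup.mkOfDetNeZero B hB
  have ha : (a : M2 F) = A := rfl
  have hb : (b : M2 F) = B := rfl
  have h1 := det_inv_mul b
  have hab : (a, b⁻¹) ∈ GG F := by
    change (a : M2 F).det = ((b⁻¹ : GL (Fin 2) F) : M2 F).det
    rw [hb] at h1
    rw [ha]
    exact mul_right_cancel₀ hB (by rw [hAB, mul_comm, h1])
  refine ⟨⟨(a, b⁻¹), hab⟩, ?_⟩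
  apply Subtype.ext
  apply LinearEquiv.ext
  intro Y
  rw [PsiW_apply, lr_apply, h]
  change (a : M2 F) * Y * (((b⁻¹)⁻¹ : GL (Fin 2) F) : M2 F) = _
  rw [inv_inv, ha, hb]

lemma mem_phi (g : AutW F) (A C : M2 F) (hA : A.det ≠ 0) (hC : C.det = 1)
    (h1 : ∀ Z, (g.1 (Z, 0)) = (A * Z * ((A.det)⁻¹ • adjugate A), 0)) (h2 : ∀ Y, (g.1 (0, Y)) = (0, A * Y * ((A.det)⁻¹ • adjugate A) * C)) :
    g ∈ (PhiW (F := F)).range := by
  let a := Matrix.GeneralLinearGroup.mkOfDetNeZero A hA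
  have hC0 : C.det ≠ 0 := by rw [hC]; exact one_ne_zero
  let c := Matrix.GeneralLinearGroup.mkOfDetNeZero C hC0
  have ha : (a : M2 F) = A := rfl
  have hc : (c : M2 F) = C := rfl
  have hai : ((a⁻¹ : GL (Fin 2) F) : M2 F) = (A.det)⁻¹ • adjugate A := by
    have h3 : (a : M2 F) * ((A.det)⁻¹ • adjugate A) = 1 := by
      rw [ha, Matrix.mul_smul, mul_adjugate, smul_smul, inv_mul_cancel₀ hA, one_smul]
    calc ((a⁻¹ : GL (Fin 2) F) : M2 F) = ((a⁻¹ : GL (Fin 2) F) : M2 F) * ((a : M2 F) * ((A.det)⁻¹ • adjugate A)) := by rw [h3, mul_one]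
      _ = (((a⁻¹ : GL (Fin 2) F) : M2 F) * (a : M2 F)) * ((A.det)⁻¹ • adjugate A) := by rw [mul_assoc]
      _ = _ := by rw [← Units.val_mul, inv_mul_cancel, Units.val_one, one_mul]
  have hab : (a, c⁻¹ * a) ∈ GG F := by
    change (a : M2 F).det = ((c⁻¹ * a : GL (Fin 2) F) : M2 F).det
    rw [Units.val_mul, det_mul]
    have := det_inv_mul c
    rw [hc, hC, one_mul] at this
    rw [this, one_mul]
  refine ⟨⟨(a, c⁻¹ * a), hab⟩, ?_⟩
  apply Subtype.ext
  apply LinearEquiv.ext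
  intro x
  rw [PhiW_apply, lr_apply, lr_apply]
  change ((a : M2 F) * x.1 * ((a⁻¹ : GL (Fin 2) F) : M2 F), (a : M2 F) * x.2 * (((c⁻¹ * a)⁻¹ : GL (Fin 2) F) : M2 F)) = _
  rw [_root_.mul_inv_rev, inv_inv, Units.val_mul, hai, ha, hc]
  have h3 : x = (x.1, 0) + (0, x.2) := by
    apply Prod.ext <;> simp
  conv_rhs => rw [h3, map_add, h1, h2]
  apply Prod.ext
  · simp
  · simp [mul_assoc]

lemma om_one_left (b : M2 F × M2 F) : om (1, 0) b = b := by
  apply Prod.ext
  · simp [om]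
  · simp [om]

lemma om_one_right (a : M2 F × M2 F) : om a (1, 0) = a := by
  apply Prod.ext
  · simp [om]
  · simp [om]

theorem centralizer_z (h2 : (2 : F) ≠ 0) (g : AutW F) (hg : g * PhiW (zG F) * g⁻¹ = PhiW (zG F)) : g ∈ (PhiW (F := F)).range := by
  have hc : ∀ x, g.1 ((PhiW (zG F)).1 x) = (PhiW (zG F)).1 (g.1 x) := by
    intro x
    rw [mul_inv_eq_iff_eq_mul] at hg
    exact congrArg (fun s : AutW F => s.1 x) hg
  have e1 : ∀ Z, g.1 (Z, 0) = ((g.1 (Z, 0)).1, 0) := by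
    intro Z
    have h := hc (Z, 0)
    rw [zG_phi, zG_phi, neg_zero] at h
    have h3 := congrArg Prod.snd h
    apply Prod.ext
    · rfl
    · change (g.1 (Z, 0)).2 = 0
      change (g.1 (Z, 0)).2 = -(g.1 (Z, 0)).2 at h3
      have h4 : (2 : F) • (g.1 (Z, 0)).2 = 0 := by
        rw [two_smul]
        nth_rewrite 2 [h3]
        exact add_neg_cancel _
      exact (smul_eq_zero.1 h4).resolve_left h2
  have e2 : ∀ Y, g.1 (0, Y) = (0, (g.1 (0, Y)).2) := by
    intro Y
    have h := hc (0, Y)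
    rw [zG_phi, zG_phi] at h
    change g.1 (0, -Y) = _ at h
    have h5 : g.1 (0, -Y) = -g.1 (0, Y) := by
      rw [← map_neg]
      congr 1
      apply Prod.ext <;> simp
    rw [h5] at h
    have h3 := congrArg Prod.fst h
    apply Prod.ext
    · change (g.1 (0, Y)).1 = 0
      change -(g.1 (0, Y)).1 = (g.1 (0, Y)).1 at h3
      have h4 : (2 : F) • (g.1 (0, Y)).1 = 0 := by
        rw [two_smul]
        nth_rewrite 1 [← h3]
        exact neg_add_cancel _
      exact (smul_eq_zero.1 h4).resolve_left h2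
    · rfl
  have hone : g.1 (1, 0) = (1, 0) := by
    have h := g.2 (1, 0) (g.1.symm (1, 0))
    rw [om_one_left, LinearEquiv.apply_symm_apply, om_one_right] at h
    exact h.symm
  -- the linear maps
  let gz : M2 F →ₗ[F] M2 F := (LinearMap.fst F _ _).comp ((g.1 : (M2 F × M2 F) →ₗ[F] (M2 F × M2 F)).comp (LinearMap.inl F _ _))
  let gy : M2 F →ₗ[F] M2 F := (LinearMap.snd F _ _).comp ((g.1 : (M2 F × M2 F) →ₗ[F] (M2 F × M2 F)).comp (LinearMap.inr F _ _))
  have hgz : ∀ Z, g.1 (Z, 0) = (gz Z, 0) := e1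
  have hgy : ∀ Y, g.1 (0, Y) = (0, gy Y) := e2
  have gz1 : gz 1 = 1 := congrArg Prod.fst hone
  have gzmul : ∀ a b, gz (a * b) = gz a * gz b := by
    intro a b
    have h := g.2 (b, 0) (a, 0)
    have e3 : om (b, 0) (a, 0) = ((a * b, 0) : M2 F × M2 F) := by
      apply Prod.ext <;> simp [om]
    rw [e3, hgz, hgz, hgz] at h
    have h3 := congrArg Prod.fst h
    simpa [om] using h3
  have gzy : ∀ a b, gy (a * b) = gz a * gy b := by
    intro a b
    have h := g.2 (a, 0) (0, b)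
    have e3 : om (a, 0) (0, b) = ((0, a * b) : M2 F × M2 F) := by
      apply Prod.ext <;> simp [om]
    rw [e3, hgy, hgy, hgz] at h
    have h3 := congrArg Prod.snd h
    simpa [om] using h3
  set C := gy 1 with hCdef
  have hCdet : C.det = 1 := by
    have h := g.2 (0, 1) (0, 1)
    have e3 : om (0, 1) (0, 1) = ((-1, 0) : M2 F × M2 F) := by
      apply Prod.ext <;> simp [om]
    have e4 : g.1 (-1, 0) = (-1, 0) := by
      have : ((-1, 0) : M2 F × M2 F) = -(1, 0) := by apply Prod.ext <;> simp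
      rw [this, map_neg, hone]
    rw [e3, e4, hgy] at h
    have h3 := congrArg Prod.fst h
    simp only [om, zero_mul, zero_sub, mul_zero] at h3
    have h4 : C * adjugate C = 1 := by
      have := neg_injective h3
      exact this.symm
    rw [mul_adjugate] at h4
    have h5 := congrFun (congrFun h4 0) 0
    simpa using h5
  -- Skolem-Noether
  have hinj : Function.Injective gz := by
    rw [injective_iff_map_eq_zero]
    intro Z hZ
    have h := hgz Z
    rw [hZ] at h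
    have h3 : (Z, (0 : M2 F)) = 0 := by
      apply g.1.injective
      rw [h, map_zero]
      rfl
    exact congrArg Prod.fst h3
  let fz : M2 F ≃ₐ[F] M2 F := AlgEquiv.ofBijective (AlgHom.ofLinearMap gz gz1 gzmul)
    ⟨hinj, LinearMap.injective_iff_surjective.1 hinj⟩
  have hfz : ∀ Z, fz Z = gz Z := fun Z => rfl
  let f : Module.End F (Fin 2 → F) ≃ₐ[F] Module.End F (Fin 2 → F) :=
    (Matrix.toLinAlgEquiv'.symm).trans (fz.trans Matrix.toLinAlgEquiv')
  obtain ⟨T, hT⟩ := AlgEquiv.eq_linearEquivConjAlgEquiv f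
  set A : M2 F := LinearMap.toMatrix' (T : (Fin 2 → F) →ₗ[F] (Fin 2 → F)) with hA
  have hAdet : A.det ≠ 0 := by
    rw [hA, LinearMap.det_toMatrix']
    exact T.isUnit_det'.ne_zero
  have hconj : ∀ Z, gz Z * A = A * Z := by
    intro Z
    have h1 : f (Matrix.toLinAlgEquiv' Z) = (T.conjAlgEquiv F) (Matrix.toLinAlgEquiv' Z) := by rw [hT]
    have h3 : f (Matrix.toLinAlgEquiv' Z) = Matrix.toLinAlgEquiv' (gz Z) := by
      change Matrix.toLinAlgEquiv' (fz (Matrix.toLinAlgEquiv'.symm (Matrix.toLinAlgEquiv' Z))) = _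
      rw [AlgEquiv.symm_apply_apply, hfz]
    rw [h3] at h1
    have h4 : (Matrix.toLinAlgEquiv' (gz Z)) ∘ₗ (T : (Fin 2 → F) →ₗ[F] (Fin 2 → F)) = (T : (Fin 2 → F) →ₗ[F] (Fin 2 → F)) ∘ₗ (Matrix.toLinAlgEquiv' Z) := by
      rw [h1]
      ext x
      simp [LinearEquiv.conjAlgEquiv_apply]
    have h5 := congrArg LinearMap.toMatrix' h4
    rw [LinearMap.toMatrix'_comp, LinearMap.toMatrix'_comp] at h5
    have h6 : ∀ Z : M2 F, LinearMap.toMatrix' (Matrix.toLinAlgEquiv' Z) = Z := fun Z => LinearMap.toMatrix'_toLin' Z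
    rw [h6, h6] at h5
    exact h5
  have hAi : A * ((A.det)⁻¹ • adjugate A) = 1 := by
    rw [Matrix.mul_smul, mul_adjugate, smul_smul, inv_mul_cancel₀ hAdet, one_smul]
  have hgzA : ∀ Z, gz Z = A * Z * ((A.det)⁻¹ • adjugate A) := by
    intro Z
    calc gz Z = gz Z * (A * ((A.det)⁻¹ • adjugate A)) := by rw [hAi, mul_one]
      _ = (gz Z * A) * ((A.det)⁻¹ • adjugate A) := by rw [mul_assoc]
      _ = _ := by rw [hconj]
  refine mem_phi g A C hAdet hCdet (fun Z => by rw [hgz, hgzA]) (fun Y => ?_)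
  rw [hgy]
  have h7 := gzy Y 1
  rw [mul_one] at h7
  rw [h7, hgzA]

end CfsgLib.SOm
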