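import Cfsg.Agent.LibSOm13

set_option autoImplicit false

/-! `SO_4^+` as pairs; `G_2` (lead). -/

namespace CfsgLib.SOm

open Cfsg.Agent.H22 Module Equiv Matrix

variable {F : Type*} [Field F]

lemma refl_detQ (Y0 : M2 F) (h0 : detQ F Y0 ≠ 0) (Y : M2 F) :
    (oRefl (detQ F) Y0 h0).1 Y = (-(Y0.det)⁻¹) • (Y0 * adjugate Y * Y0) := by
  rw [oRefl_apply, polar_detQ, detQ_apply]
  rw [detQ_apply, det_fin_two] at h0
  rw [det_fin_two]
  ext i j
  fin_cases i <;> fin_cases j <;>
    simp [Matrix.mul_apply, Fin.sum_univ_two, Matrix.adjugate_fin_two] <;> field_simp <;> ring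

lemma nondeg_detQ : (QuadraticMap.polarBilin (detQ F)).Nondegenerate := by
  apply nondeg_of_left
  intro x h
  have h' : ∀ y, QuadraticMap.polar (detQ F) x y = 0 := fun y => h y
  ext i j
  fin_cases i <;> fin_cases j
  · have := h' !![0, 0; 0, 1]
    rw [polar_detQ] at this
    simpa using this
  · have := h' !![0, 0; 1, 0]
    rw [polar_detQ] at this
    simpa using this
  · have := h' !![0, 1; 0, 0]
    rw [polar_detQ] at this
    simpa using this
  · have := h' !![1, 0; 0, 0]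
    rw [polar_detQ] at this
    simpa using this

lemma refl_mul_mem (Y0 Y1 : M2 F) (h0 : detQ F Y0 ≠ 0) (h1 : detQ F Y1 ≠ 0) :
    oRefl (detQ F) Y1 h1 * oRefl (detQ F) Y0 h0 ∈ (PsiW (F := F)).range := by
  have c0 : Y0.det ≠ 0 := by rwa [detQ_apply] at h0
  have c1 : Y1.det ≠ 0 := by rwa [detQ_apply] at h1
  refine mem_psi _ (Y1 * adjugate Y0) ((Y0.det * Y1.det)⁻¹ • (adjugate Y0 * Y1)) ?_ ?_
  · rw [det_smul, det_mul, det_mul, det_adjugate]
    simp only [Fintype.card_fin, Nat.add_one_sub_one, pow_one]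
    field_simp
  · intro Y
    change (oRefl (detQ F) Y1 h1).1 ((oRefl (detQ F) Y0 h0).1 Y) = _
    rw [refl_detQ, refl_detQ, adjugate_smul, adjugate_mul_distrib, adjugate_mul_distrib]
    have : adjugate (adjugate Y) = Y := by
      rw [Matrix.adjugate_fin_two, Matrix.adjugate_fin_two]
      ext i j
      fin_cases i <;> fin_cases j <;> simp
    rw [this]
    simp only [Fintype.card_fin, Nat.add_one_sub_one, pow_one, Matrix.mul_smul, Matrix.smul_mul, smul_smul]
    congr 1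
    · rw [mul_inv]
      ring
    · noncomm_ring

/-- the isometry -/
lemma exists_iso [Fintype F] (h2 : (2 : F) ≠ 0) : ∃ e : ((Fin 2 → Fin 2 → F) × (Fin 0 → F)) ≃ₗ[F] M2 F,
    ∀ v, detQ F (e v) = QV ![] v := by
  obtain ⟨W, hW⟩ := negM_even h2 2 ⟨1, rfl⟩
  let φ : ((Fin 2 → Fin 2 → F) × (Fin 0 → F)) →ₗ[F] M2 F :=
    { toFun := fun v => !![v.1 0 0 - W (s1 2 0 v) 0, -(v.1 1 0 - W (s1 2 0 v) 1); v.1 1 0 + W (s1 2 0 v) 1, v.1 0 0 + W (s1 2 0 v) 0],
      map_add' := fun x y => by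
        ext i j
        fin_cases i <;> fin_cases j <;> simp <;> ring,
      map_smul' := fun c x => by
        ext i j
        fin_cases i <;> fin_cases j <;> simp <;> ring }
  have hφ : ∀ v, detQ F (φ v) = QV ![] v := by
    intro v
    rw [detQ_apply, QV_apply]
    have h3 := hW (s1 2 0 v)
    simp only [s1_apply, Fin.sum_univ_two] at h3
    change det !![v.1 0 0 - W (s1 2 0 v) 0, -(v.1 1 0 - W (s1 2 0 v) 1); v.1 1 0 + W (s1 2 0 v) 1, v.1 0 0 + W (s1 2 0 v) 0] = _
    rw [det_fin_two_of]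
    simp only [q2_apply, Fin.sum_univ_two, Finset.univ_eq_empty, Finset.sum_empty, add_zero]
    linear_combination -h3
  have hinj : Function.Injective φ := by
    rw [injective_iff_map_eq_zero]
    intro v hv
    apply polar_zero_QV ![] h2 (fun j => j.elim0)
    intro w
    have h1 : QuadraticMap.polar (QV (k := 2) ![]) v w = QuadraticMap.polar (detQ F) (φ v) (φ w) := by
      simp only [QuadraticMap.polar]
      rw [← map_add, hφ, hφ, hφ]
    rw [h1, hv]
    simp
  refine ⟨LinearEquiv.ofInjectiveOfFinrankEq φ hinj ?_, fun v => ?_⟩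
  · rw [finrank_VV, Module.finrank_matrix]
    simp
  · exact hφ v

lemma detO_oEquiv {V V' : Type*} [AddCommGroup V] [Module F V] [AddCommGroup V'] [Module F V']
    {Q : QuadraticForm F V} {Q' : QuadraticForm F V'} (e : V ≃ₗ[F] V') (h : ∀ v, Q' (e v) = Q v) (g : OGrp Q) :
    oEquiv e h g ∈ (detO Q').ker ↔ g ∈ (detO Q).ker := by
  rw [mem_detO, mem_detO]
  have : (((oEquiv e h g).1 : V' ≃ₗ[F] V') : V' →ₗ[F] V') = (e : V →ₗ[F] V') ∘ₗ (g.1 : V →ₗ[F] V) ∘ₗ (e.symm : V' →ₗ[F] V) := rfl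
  rw [this, LinearMap.det_conj]

lemma oEquiv_refl {V V' : Type*} [AddCommGroup V] [Module F V] [AddCommGroup V'] [Module F V']
    {Q : QuadraticForm F V} {Q' : QuadraticForm F V'} (e : V ≃ₗ[F] V') (h : ∀ v, Q' (e v) = Q v) (v : V) (hv : Q v ≠ 0) (hv' : Q' (e v) ≠ 0) :
    oEquiv e h (oRefl Q v hv) = oRefl Q' (e v) hv' := by
  apply Subtype.ext
  apply LinearEquiv.ext
  intro x
  change e ((oRefl Q v hv).1 (e.symm x)) = _
  rw [oRefl_apply, oRefl_apply, map_sub, map_smul, LinearEquiv.apply_symm_apply, h]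
  have : QuadraticMap.polar Q v (e.symm x) = QuadraticMap.polar Q' (e v) x := by
    simp only [QuadraticMap.polar]
    rw [← h, ← h, ← h, map_add, LinearEquiv.apply_symm_apply]
  rw [this]

lemma det_lr (a b : GL (Fin 2) F) : LinearMap.det (lr a b : M2 F →ₗ[F] M2 F) = (a : M2 F).det ^ 2 * ((b⁻¹ : GL (Fin 2) F) : M2 F).det ^ 2 := by
  have e1 : (lr a b : M2 F →ₗ[F] M2 F) = (LinearMap.mulLeft F (a : M2 F)) ∘ₗ (LinearMap.mulRight F ((b⁻¹ : GL (Fin 2) F) : M2 F)) := by
    apply LinearMap.ext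
    intro Y
    change (a : M2 F) * Y * ((b⁻¹ : GL (Fin 2) F) : M2 F) = (a : M2 F) * (Y * ((b⁻¹ : GL (Fin 2) F) : M2 F))
    rw [mul_assoc]
  rw [e1, LinearMap.det_comp]
  have hR : ∀ B : M2 F, LinearMap.det (LinearMap.mulRight F B) = B.det ^ 2 := by
    intro B
    have e2 : (LinearMap.mulRight F B : M2 F →ₗ[F] M2 F) = (LinearMap.pi fun i : Fin 2 => (Matrix.vecMulLinear B).comp (LinearMap.proj i) : (Fin 2 → Fin 2 → F) →ₗ[F] (Fin 2 → Fin 2 → F)) := by
      apply LinearMap.ext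
      intro Y
      funext i j
      rfl
    have e3 : LinearMap.det (Matrix.vecMulLinear B) = B.det := by
      rw [← Matrix.det_transpose, ← LinearMap.det_toLin']
      congr 1
      apply LinearMap.ext
      intro v
      funext j
      simp [Matrix.vecMulLinear_apply, Matrix.toLin'_apply, Matrix.mulVec_transpose]
    rw [e2]
    have := LinearMap.det_pi (R := F) (M := Fin 2 → F) (fun _ : Fin 2 => Matrix.vecMulLinear B)
    rw [Fin.prod_univ_two, e3, ← pow_two] at this
    exact this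
  have hL : ∀ B : M2 F, LinearMap.det (LinearMap.mulLeft F B) = B.det ^ 2 := by
    intro B
    have e2 : (LinearMap.mulLeft F B : M2 F →ₗ[F] M2 F) = (Matrix.transposeLinearEquiv (Fin 2) (Fin 2) F F : M2 F →ₗ[F] M2 F) ∘ₗ (LinearMap.mulRight F Bᵀ) ∘ₗ ((Matrix.transposeLinearEquiv (Fin 2) (Fin 2) F F).symm : M2 F →ₗ[F] M2 F) := by
      apply LinearMap.ext
      intro Y
      change B * Y = (Yᵀ * Bᵀ)ᵀ
      rw [Matrix.transpose_mul, Matrix.transpose_transpose, Matrix.transpose_transpose]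
    rw [e2, LinearMap.det_conj, hR, Matrix.det_transpose]
  rw [hR, hL]

lemma psi_det (p : GG F) : PsiW p ∈ (detO (detQ F)).ker := by
  rw [mem_detO]
  change LinearMap.det (lr p.1.1 p.1.2 : M2 F →ₗ[F] M2 F) = 1
  rw [det_lr, ← mul_pow]
  have h1 : (p.1.1 : M2 F).det = (p.1.2 : M2 F).det := p.2
  rw [h1, det_inv_mul, one_pow]

theorem range_psi [Fintype F] (h2 : (2 : F) ≠ 0) : (PsiW (F := F)).range = (detO (detQ F)).ker := by
  apply le_antisymm
  · rintro _ ⟨p, rfl⟩
    exact psi_det p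
  · intro g hg
    have hF : (∃ a : F, a ≠ 0 ∧ a ≠ 1) ∨ finrank F (M2 F) ≠ 4 := by
      left
      refine ⟨-1, neg_ne_zero.2 one_ne_zero, ?_⟩
      intro h
      apply h2
      linear_combination -h
    rcases mem_even_or _ (fun s hs => by
      obtain ⟨v, hv, rfl⟩ := hs
      exact ⟨v, hv, oRefl_inv _ _⟩) (closure_oRefl nondeg_detQ hF) (PsiW (F := F)).range (fun s hs t ht => by
      obtain ⟨v, hv, rfl⟩ := hs
      obtain ⟨w, hw, rfl⟩ := ht
      exact refl_mul_mem w v hw hv) g with h | h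
    · exact h
    · exfalso
      obtain ⟨e, he⟩ := exists_iso h2
      have hq : q2 F (f0 F) ≠ 0 := by
        rw [q2_apply]
        simp [f0]
      have hQ : QV (k := 2) (l := 0) (F := F) ![] (Pi.single 0 (f0 F), 0) ≠ 0 := by
        rw [QV_apply]
        simp [q2_apply, f0]
      have hQ' : detQ F (e (Pi.single 0 (f0 F), 0)) ≠ 0 := by rwa [he]
      have h3 := h _ ⟨_, hQ', rfl⟩
      obtain ⟨p, hp⟩ := h3
      have h4 := psi_det p
      rw [hp] at h4
      have h5 := Subgroup.mul_mem _ h4 (Subgroup.inv_mem _ hg)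
      rw [mul_inv_cancel_right, ← oEquiv_refl e he _ hQ hQ', detO_oEquiv, mem_detO, ← emb_refl ![] 0 (f0 F) hq hQ, emb_eq, det_bet,
        Fin.prod_univ_two] at h5
      rw [Pi.mulSingle_eq_same, Pi.mulSingle_eq_of_ne (by decide : (1 : Fin 2) ≠ 0)] at h5
      have h6 : dt ((1 : R2 F) : (Fin 2 → F) ≃ₗ[F] (Fin 2 → F)) = 1 := dt_one
      rw [h6, mul_one] at h5
      have h7 : dt (oRefl (q2 F) (f0 F) hq).1 = -1 := by
        unfold dt
        rw [oRefl_apply, oRefl_apply, polar_q2, polar_q2, q2_apply]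
        simp [f0, f1]
        ring
      rw [h7] at h5
      apply h2
      linear_combination -h5

end CfsgLib.SOm
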