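import Cfsg.Agent.LibSOm14

set_option autoImplicit false

/-! `G_2(q)`, `q` odd: Sylow `2`-subgroups (lead). -/

namespace CfsgLib.SOm

open Cfsg.Agent.H22 Module Equiv Matrix

variable {F : Type*} [Field F]

/-- equal kernels -/
noncomputable def rgEquiv : (PsiW (F := F)).range ≃* (PhiW (F := F)).range :=
  (QuotientGroup.quotientKerEquivRange PsiW).symm.trans
    ((QuotientGroup.quotientMulEquivOfEq ker_eq.symm).trans (QuotientGroup.quotientKerEquivRange PhiW))

lemma rgEquiv_apply (p : GG F) : rgEquiv ⟨PsiW p, ⟨p, rfl⟩⟩ = ⟨PhiW p, ⟨p, rfl⟩⟩ := by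
  have h1 : (QuotientGroup.quotientKerEquivRange PsiW).symm ⟨PsiW p, ⟨p, rfl⟩⟩ = (QuotientGroup.mk p : GG F ⧸ (PsiW (F := F)).ker) := by
    rw [MulEquiv.symm_apply_eq]
    rfl
  unfold rgEquiv
  rw [MulEquiv.trans_apply, MulEquiv.trans_apply, h1]
  rfl

lemma mz_apply (w : (Fin 2 → Fin 2 → F) × (Fin 0 → F)) : (mz F).1 w = -w := by
  apply Prod.ext
  · rfl
  · exact Subsingleton.elim _ _

theorem se_g2 [Fintype F] (hF : Odd (Fintype.card F)) : SE' (Cfsg.Lie.G2 F) := by
  have h2 := two_ne hF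
  have hfin : Finite (AutW F) := by
    have : Finite ((M2 F × M2 F) ≃ₗ[F] (M2 F × M2 F)) := Finite.of_injective (fun e => (e : (M2 F × M2 F) → (M2 F × M2 F))) DFunLike.coe_injective
    infer_instance
  refine SE'.congr g2Equiv.symm ?_
  have hm : mz F ∈ (detO (QV (k := 2) (l := 0) (F := F) ![])).ker := by
    rw [mem_detO]
    have h5 := det_bet (![] : Fin 0 → F) (fun _ : Fin 2 => neg2 F)
    rw [Fin.prod_univ_two, dt_neg2, mul_one] at h5
    exact h5
  have h := sez_so4 hF hm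
  obtain ⟨e, he⟩ := exists_iso h2
  have hmap : (detO (QV (k := 2) (l := 0) (F := F) ![])).ker.map (oEquiv e he).toMonoidHom = (PsiW (F := F)).range := by
    rw [range_psi h2]
    ext g
    constructor
    · rintro ⟨x, hx, rfl⟩
      exact (detO_oEquiv e he x).2 hx
    · intro hg
      refine ⟨(oEquiv e he).symm g, ?_, (oEquiv e he).apply_symm_apply g⟩
      rw [SetLike.mem_coe, ← detO_oEquiv e he, MulEquiv.apply_symm_apply]
      exact hg
  let e1 : (detO (QV (k := 2) (l := 0) (F := F) ![])).ker ≃* (PsiW (F := F)).range :=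
    ((oEquiv e he).subgroupMap _).trans (MulEquiv.subgroupCongr hmap)
  have h1 := (h.congr e1).congr rgEquiv
  have h3 : rgEquiv (e1 ⟨mz F, hm⟩) = ⟨PhiW (zG F), ⟨zG F, rfl⟩⟩ := by
    rw [← rgEquiv_apply]
    congr 1
    apply Subtype.ext
    apply Subtype.ext
    apply LinearEquiv.ext
    intro Y
    change e ((mz F).1 (e.symm Y)) = (PsiW (zG F)).1 Y
    rw [zG_psi, mz_apply, map_neg, LinearEquiv.apply_symm_apply]
  rw [h3] at h1
  refine SEz.se' (z := PhiW (zG F)) ?_ (PhiW (F := F)).range ⟨zG F, rfl⟩ (centralizer_z h2) h1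
  intro hz
  have h4 := congrArg (fun g : AutW F => (g.1 (0, 1)).2 0 0) hz
  change ((PhiW (zG F)).1 (0, 1)).2 0 0 = (1 : M2 F) 0 0 at h4
  rw [zG_phi] at h4
  simp at h4
  apply h2
  linear_combination -h4

end CfsgLib.SOm
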