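import Cfsg.Agent.LibSOm1
import Cfsg.Agent.LibSOm2
import Cfsg.Agent.LibH22OOrd3

set_option autoImplicit false

/-! The space `⟨1,1⟩^k ⟂ ⟨d_1,…,d_l⟩` (lead). -/

namespace CfsgLib.SOm

open Cfsg.Agent.H22 Module Equiv

variable {F : Type*} [Field F]

/-- sum of two squares -/
noncomputable def q2 (F : Type*) [Field F] : QuadraticForm F (Fin 2 → F) := QuadraticMap.weightedSumSquares F (fun _ => (1 : F))

lemma q2_apply (u : Fin 2 → F) : q2 F u = u 0 * u 0 + u 1 * u 1 := by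
  simp [q2, Fin.sum_univ_two]

lemma polar_q2 (u v : Fin 2 → F) : QuadraticMap.polar (q2 F) u v = 2 * (u 0 * v 0 + u 1 * v 1) := by
  simp only [QuadraticMap.polar, q2_apply, Pi.add_apply]
  ring

noncomputable abbrev R2 (F : Type*) [Field F] : Subgroup ((Fin 2 → F) ≃ₗ[F] (Fin 2 → F)) := OGrp (q2 F)

/-- the first basis vector -/
def f0 (F : Type*) [Field F] : Fin 2 → F := ![1, 0]
def f1 (F : Type*) [Field F] : Fin 2 → F := ![0, 1]

lemma vec_eq (u : Fin 2 → F) : u = u 0 • f0 F + u 1 • f1 F := by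
  funext i
  fin_cases i <;> simp [f0, f1]

lemma r_apply (r : (Fin 2 → F) ≃ₗ[F] (Fin 2 → F)) (u : Fin 2 → F) : r u = u 0 • r (f0 F) + u 1 • r (f1 F) := by
  conv_lhs => rw [vec_eq u]
  rw [map_add, map_smul, map_smul]

/-- the determinant on the plane -/
def dt (r : (Fin 2 → F) ≃ₗ[F] (Fin 2 → F)) : F := r (f0 F) 0 * r (f1 F) 1 - r (f1 F) 0 * r (f0 F) 1

lemma det_eq_dt (r : (Fin 2 → F) ≃ₗ[F] (Fin 2 → F)) : LinearMap.det (r : (Fin 2 → F) →ₗ[F] (Fin 2 → F)) = dt r := by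
  rw [← LinearMap.det_toMatrix', Matrix.det_fin_two]
  have h0 : (Pi.single 0 1 : Fin 2 → F) = f0 F := by
    funext i
    fin_cases i <;> simp [f0]
  have h1 : (Pi.single 1 1 : Fin 2 → F) = f1 F := by
    funext i
    fin_cases i <;> simp [f1]
  have e : ∀ i j, (LinearMap.toMatrix' (r : (Fin 2 → F) →ₗ[F] (Fin 2 → F))) i j = r (Pi.single j 1) i := by
    intro i j
    rw [LinearMap.toMatrix'_apply]
    rfl
  rw [e, e, e, e, h0, h1]
  rfl

lemma dt_mul (r s : (Fin 2 → F) ≃ₗ[F] (Fin 2 → F)) : dt (r * s) = dt r * dt s := by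
  rw [← det_eq_dt, ← det_eq_dt, ← det_eq_dt, ← map_mul]
  rfl

lemma dt_one : dt (1 : (Fin 2 → F) ≃ₗ[F] (Fin 2 → F)) = 1 := by
  simp [dt, f0, f1]

section
variable (h2 : (2 : F) ≠ 0)
include h2

lemma orth (r : R2 F) : (r.1 (f0 F) 0 * r.1 (f0 F) 0 + r.1 (f0 F) 1 * r.1 (f0 F) 1 = 1) ∧
    (r.1 (f1 F) 0 * r.1 (f1 F) 0 + r.1 (f1 F) 1 * r.1 (f1 F) 1 = 1) ∧
    (r.1 (f0 F) 0 * r.1 (f1 F) 0 + r.1 (f0 F) 1 * r.1 (f1 F) 1 = 0) := by
  have a := r.2 (f0 F)
  have b := r.2 (f1 F)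
  have c := OGrp_polar (Q := q2 F) r.2 (f0 F) (f1 F)
  rw [q2_apply, q2_apply] at a b
  rw [polar_q2, polar_q2] at c
  refine ⟨?_, ?_, ?_⟩
  · rw [a]
    simp [f0]
  · rw [b]
    simp [f1]
  · have := mul_left_cancel₀ h2 c
    rw [this]
    simp [f0, f1]

lemma dt_sq (r : R2 F) : dt r.1 * dt r.1 = 1 := by
  obtain ⟨a, b, c⟩ := orth h2 r
  unfold dt
  linear_combination (r.1 (f1 F) 0 * r.1 (f1 F) 0 + r.1 (f1 F) 1 * r.1 (f1 F) 1) * a + b - (r.1 (f0 F) 0 * r.1 (f1 F) 0 + r.1 (f0 F) 1 * r.1 (f1 F) 1) * c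

lemma dt_cases (r : R2 F) : dt r.1 = 1 ∨ dt r.1 = -1 := mul_self_eq_one_iff.1 (dt_sq h2 r)

lemma sq_of_dt (r : R2 F) (h : dt r.1 = -1) : r * r = 1 := by
  obtain ⟨a, b, c⟩ := orth h2 r
  unfold dt at h
  have h1 : r.1 (f1 F) 0 = r.1 (f0 F) 1 := by
    linear_combination (-r.1 (f1 F) 0) * a + (r.1 (f0 F) 0) * c - (r.1 (f0 F) 1) * h
  have h3 : r.1 (f1 F) 1 = - r.1 (f0 F) 0 := by
    linear_combination (-r.1 (f1 F) 1) * a + (r.1 (f0 F) 1) * c + (r.1 (f0 F) 0) * h
  apply Subtype.ext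
  apply LinearEquiv.ext
  intro u
  change r.1 (r.1 u) = u
  rw [r_apply r.1 (r.1 u), r_apply r.1 u]
  funext i
  fin_cases i
  · simp only [Pi.add_apply, Pi.smul_apply, smul_eq_mul, Fin.zero_eta, Fin.mk_one]
    rw [h1, h3]
    linear_combination (u 0) * a
  · simp only [Pi.add_apply, Pi.smul_apply, smul_eq_mul, Fin.zero_eta, Fin.mk_one]
    rw [h1, h3]
    linear_combination (u 1) * a

lemma conj_of_dt (r d : R2 F) (hr : dt r.1 = -1) (hd : dt d.1 = 1) : r * d⁻¹ * r⁻¹ = d := by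
  have h1 : (r * d⁻¹) * (r * d⁻¹) = 1 := by
    apply sq_of_dt h2
    have : dt ((r * d⁻¹ : R2 F) : (Fin 2 → F) ≃ₗ[F] (Fin 2 → F)) * dt d.1 = dt r.1 := by
      rw [← dt_mul, ← Subgroup.coe_mul, inv_mul_cancel_right]
    rw [hd, mul_one, hr] at this
    exact this
  have h3 : r * r = 1 := sq_of_dt h2 r hr
  have h4 : r⁻¹ = r := inv_eq_of_mul_eq_one_left h3
  have h5 : r * d⁻¹ * r = d := by
    calc r * d⁻¹ * r = ((r * d⁻¹) * (r * d⁻¹)) * d := by group
      _ = d := by rw [h1, one_mul]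
  rw [h4, h5]

lemma D_le (D : Subgroup (R2 F)) (r : R2 F) (hrD : r ∈ D) (hr : dt r.1 = -1) : D ≤ Subgroup.closure {r | r ∈ D ∧ r * r = 1} := by
  intro d hd
  rcases dt_cases h2 d with h | h
  · have h1 : d * r ∈ Subgroup.closure {r | r ∈ D ∧ r * r = 1} := by
      refine Subgroup.subset_closure ⟨D.mul_mem hd hrD, sq_of_dt h2 _ ?_⟩
      rw [Subgroup.coe_mul, dt_mul, h, hr, one_mul]
    have h3 : r ∈ Subgroup.closure {r | r ∈ D ∧ r * r = 1} := Subgroup.subset_closure ⟨hrD, sq_of_dt h2 _ hr⟩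
    have h4 := Subgroup.mul_mem _ h1 (Subgroup.inv_mem _ h3)
    rwa [mul_inv_cancel_right] at h4
  · exact Subgroup.subset_closure ⟨hd, sq_of_dt h2 _ h⟩

end

/-- the space -/
noncomputable def QV {k l : ℕ} (d : Fin l → F) : QuadraticForm F ((Fin k → Fin 2 → F) × (Fin l → F)) :=
  QuadraticMap.prod (QuadraticMap.pi fun _ => q2 F) (QuadraticMap.weightedSumSquares F d)

lemma QV_apply {k l : ℕ} (d : Fin l → F) (v : (Fin k → Fin 2 → F) × (Fin l → F)) :
    QV d v = (∑ i, q2 F (v.1 i)) + ∑ j, d j * (v.2 j * v.2 j) := by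
  simp [QV, QuadraticMap.prod_apply, QuadraticMap.pi_apply]

/-- the plane part -/
noncomputable def bet {k l : ℕ} (d : Fin l → F) : (Fin k → R2 F) →* OGrp (QV (k := k) d) where
  toFun f := ⟨LinearEquiv.prodCongr (LinearEquiv.piCongrRight fun i => (f i).1) (LinearEquiv.refl F _), by
    intro v
    rw [QV_apply, QV_apply]
    congr 1
    exact Finset.sum_congr rfl fun i _ => (f i).2 _⟩
  map_one' := by
    apply Subtype.ext
    apply LinearEquiv.ext
    intro v
    rfl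
  map_mul' f g := by
    apply Subtype.ext
    apply LinearEquiv.ext
    intro v
    rfl

lemma bet_apply {k l : ℕ} (d : Fin l → F) (f : Fin k → R2 F) (v : (Fin k → Fin 2 → F) × (Fin l → F)) :
    (bet d f).1 v = (fun i => (f i).1 (v.1 i), v.2) := rfl

/-- permutations of the planes -/
noncomputable def tau {k l : ℕ} (d : Fin l → F) : Perm (Fin k) →* OGrp (QV (k := k) d) where
  toFun π := ⟨LinearEquiv.prodCongr (LinearEquiv.funCongrLeft F (Fin 2 → F) π.symm) (LinearEquiv.refl F _), by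
    intro v
    rw [QV_apply, QV_apply]
    congr 1
    exact Equiv.sum_comp π.symm (fun i => q2 F (v.1 i))⟩
  map_one' := by
    apply Subtype.ext
    apply LinearEquiv.ext
    intro v
    rfl
  map_mul' f g := by
    apply Subtype.ext
    apply LinearEquiv.ext
    intro v
    rfl

lemma tau_apply {k l : ℕ} (d : Fin l → F) (π : Perm (Fin k)) (v : (Fin k → Fin 2 → F) × (Fin l → F)) :
    (tau d π).1 v = (fun i => v.1 (π.symm i), v.2) := rfl

/-- sign of a unit -/
def sg (F : Type*) [Field F] (e : ℤˣ) : F := ((e : ℤ) : F)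

lemma sg_mul_self (e : ℤˣ) : sg F e * sg F e = 1 := by
  rcases Int.units_eq_one_or e with rfl | rfl <;> simp [sg]

lemma sg_mul (e e' : ℤˣ) : sg F (e * e') = sg F e * sg F e' := by
  simp [sg]

/-- sign changes -/
noncomputable def sgn {k l : ℕ} (d : Fin l → F) : (Fin l → ℤˣ) →* OGrp (QV (k := k) d) where
  toFun e := ⟨LinearEquiv.prodCongr (LinearEquiv.refl F _) (LinearEquiv.ofInvolutive
      { toFun := fun y j => sg F (e j) * y j
        map_add' := fun x y => by funext j; simp only [Pi.add_apply]; ring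
        map_smul' := fun c x => by funext j; simp only [Pi.smul_apply, smul_eq_mul, RingHom.id_apply]; ring } (by
        intro y
        funext j
        change sg F (e j) * (sg F (e j) * y j) = y j
        rw [← mul_assoc, sg_mul_self, one_mul])), by
    intro v
    rw [QV_apply, QV_apply]
    congr 1
    refine Finset.sum_congr rfl fun j _ => ?_
    change d j * ((sg F (e j) * v.2 j) * (sg F (e j) * v.2 j)) = _
    linear_combination (d j * v.2 j * v.2 j) * (sg_mul_self (F := F) (e j))⟩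
  map_one' := by
    apply Subtype.ext
    apply LinearEquiv.ext
    intro v
    apply Prod.ext
    · rfl
    · funext j
      change sg F 1 * v.2 j = v.2 j
      simp [sg]
  map_mul' f g := by
    apply Subtype.ext
    apply LinearEquiv.ext
    intro v
    apply Prod.ext
    · rfl
    · funext j
      change sg F (f j * g j) * v.2 j = sg F (f j) * (sg F (g j) * v.2 j)
      rw [sg_mul, mul_assoc]

lemma sgn_apply {k l : ℕ} (d : Fin l → F) (e : Fin l → ℤˣ) (v : (Fin k → Fin 2 → F) × (Fin l → F)) :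
    (sgn d e).1 v = (v.1, fun j => sg F (e j) * v.2 j) := rfl

variable {k l : ℕ} (d : Fin l → F)

lemma og_ext' {g h : OGrp (QV (k := k) d)} (H : ∀ v, g.1 v = h.1 v) : g = h := Subtype.ext (LinearEquiv.ext H)

lemma bet_sgn (f : Fin k → R2 F) (e : Fin l → ℤˣ) : bet d f * sgn d e = sgn d e * bet d f := og_ext' d fun v => rfl

lemma tau_sgn (π : Perm (Fin k)) (e : Fin l → ℤˣ) : tau d π * sgn d e = sgn d e * tau d π := og_ext' d fun v => rfl

lemma tau_bet (π : Perm (Fin k)) (f : Fin k → R2 F) : tau d π * bet d f = bet d (fun i => f (π.symm i)) * tau d π :=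
  og_ext' d fun v => rfl

/-- one plane -/
noncomputable def emb (i : Fin k) : R2 F →* OGrp (QV (k := k) d) := (bet d).comp (MonoidHom.mulSingle (fun _ => R2 F) i)

lemma emb_eq (i : Fin k) (r : R2 F) : emb d i r = bet d (Pi.mulSingle i r) := rfl

lemma emb_comm (i j : Fin k) (hij : i ≠ j) (a b : R2 F) : Commute (emb d i a) (emb d j b) := by
  have := (Pi.mulSingle_commute (f := fun _ : Fin k => R2 F) hij a b).map (bet d)
  exact this

lemma tau_emb (π : Perm (Fin k)) (i : Fin k) (r : R2 F) : tau d π * emb d i r * (tau d π)⁻¹ = emb d (π i) r := by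
  rw [emb_eq, emb_eq, tau_bet, mul_inv_cancel_right]
  congr 1
  funext j
  by_cases h : π.symm j = i
  · rw [h, Pi.mulSingle_eq_same, ← h, Equiv.apply_symm_apply, Pi.mulSingle_eq_same]
  · rw [Pi.mulSingle_eq_of_ne h, Pi.mulSingle_eq_of_ne]
    intro h'
    apply h
    rw [h', Equiv.symm_apply_apply]

end CfsgLib.SOm
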