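import Cfsg.Agent.LibSOm3

set_option autoImplicit false

/-! The Sylow subgroup (lead). -/

namespace CfsgLib.SOm

open Cfsg.Agent.H22 Module Equiv

variable {F : Type*} [Field F] {k l : ℕ} (d : Fin l → F)

/-- `(D wr T) × C_2^l` -/
noncomputable def PH (D : Subgroup (R2 F)) (T : Subgroup (Perm (Fin k))) : Subgroup (OGrp (QV (k := k) d)) where
  carrier := {g | ∃ f : Fin k → R2 F, (∀ i, f i ∈ D) ∧ ∃ e : Fin l → ℤˣ, ∃ π ∈ T, g = bet d f * sgn d e * tau d π}
  mul_mem' := by
    rintro g g' ⟨f, hf, e, π, hπ, rfl⟩ ⟨f', hf', e', π', hπ', rfl⟩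
    refine ⟨f * (fun i => f' (π.symm i)), fun i => D.mul_mem (hf i) (hf' _), e * e', π * π', T.mul_mem hπ hπ', ?_⟩
    rw [map_mul, map_mul, map_mul]
    calc bet d f * sgn d e * tau d π * (bet d f' * sgn d e' * tau d π')
        = bet d f * sgn d e * (tau d π * bet d f') * sgn d e' * tau d π' := by group
      _ = bet d f * (sgn d e * bet d (fun i => f' (π.symm i))) * (tau d π * sgn d e') * tau d π' := by
          rw [tau_bet]; group
      _ = _ := by rw [← bet_sgn, tau_sgn]; group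
  one_mem' := ⟨1, fun _ => D.one_mem, 1, 1, T.one_mem, by simp⟩
  inv_mem' := by
    rintro g ⟨f, hf, e, π, hπ, rfl⟩
    refine ⟨fun i => (f⁻¹) (π⁻¹.symm i), fun i => D.inv_mem (hf _), e⁻¹, π⁻¹, T.inv_mem hπ, ?_⟩
    symm
    calc bet d (fun i => (f⁻¹) (π⁻¹.symm i)) * sgn d e⁻¹ * tau d π⁻¹
        = bet d (fun i => (f⁻¹) (π⁻¹.symm i)) * (sgn d e⁻¹ * tau d π⁻¹) := mul_assoc _ _ _
      _ = (bet d (fun i => (f⁻¹) (π⁻¹.symm i)) * tau d π⁻¹) * sgn d e⁻¹ := by rw [← tau_sgn, mul_assoc]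
      _ = tau d π⁻¹ * (bet d f⁻¹ * sgn d e⁻¹) := by rw [← tau_bet, mul_assoc]
      _ = (tau d π)⁻¹ * ((sgn d e)⁻¹ * (bet d f)⁻¹) := by rw [bet_sgn, map_inv, map_inv, map_inv]
      _ = _ := by rw [← mul_inv_rev, ← mul_inv_rev]

lemma mem_PH {D : Subgroup (R2 F)} {T : Subgroup (Perm (Fin k))} {g : OGrp (QV (k := k) d)} :
    g ∈ PH d D T ↔ ∃ f : Fin k → R2 F, (∀ i, f i ∈ D) ∧ ∃ e : Fin l → ℤˣ, ∃ π ∈ T, g = bet d f * sgn d e * tau d π := Iff.rfl

lemma PH_closure (D : Subgroup (R2 F)) (T : Subgroup (Perm (Fin k))) (hT : T ≤ Subgroup.closure {t | t ∈ T ∧ t * t = 1}) :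
    PH d D T = Subgroup.closure ({g | ∃ i, ∃ r ∈ D, g = emb d i r} ∪ {g | ∃ j, g = sgn d (Pi.mulSingle j (-1))} ∪
      {g | ∃ t ∈ T, t * t = 1 ∧ g = tau d t}) := by
  classical
  apply le_antisymm
  · rintro g ⟨f, hf, e, π, hπ, rfl⟩
    set S := Subgroup.closure ({g | ∃ i, ∃ r ∈ D, g = emb d i r} ∪ {g | ∃ j, g = sgn d (Pi.mulSingle j (-1))} ∪
      {g | ∃ t ∈ T, t * t = 1 ∧ g = tau d t}) with hS
    refine S.mul_mem (S.mul_mem ?_ ?_) ?_
    · have h1 : Subgroup.pi Set.univ (fun _ : Fin k => D) ≤ S.comap (bet d) := by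
        rw [Subgroup.pi_le_iff]
        rintro i _ ⟨r, hr, rfl⟩
        exact Subgroup.subset_closure (Or.inl (Or.inl ⟨i, r, hr, rfl⟩))
      exact h1 (fun i _ => hf i)
    · have h1 : Subgroup.pi Set.univ (fun _ : Fin l => (⊤ : Subgroup ℤˣ)) ≤ S.comap (sgn d) := by
        rw [Subgroup.pi_le_iff]
        rintro j _ ⟨r, hr, rfl⟩
        rcases Int.units_eq_one_or r with rfl | rfl
        · change sgn d (Pi.mulSingle j 1) ∈ S
          rw [Pi.mulSingle_one, map_one]
          exact S.one_mem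
        · exact Subgroup.subset_closure (Or.inl (Or.inr ⟨j, rfl⟩))
      exact h1 (fun i _ => Subgroup.mem_top _)
    · have h1 : T ≤ S.comap (tau d) := by
        refine hT.trans ?_
        rw [Subgroup.closure_le]
        rintro t ⟨ht, ht2⟩
        exact Subgroup.subset_closure (Or.inr ⟨t, ht, ht2, rfl⟩)
      exact h1 hπ
  · rw [Subgroup.closure_le]
    rintro g ((⟨i, r, hr, rfl⟩ | ⟨j, rfl⟩) | ⟨t, ht, ht2, rfl⟩)
    · refine ⟨Pi.mulSingle i r, fun j => ?_, 1, 1, T.one_mem, ?_⟩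
      · by_cases h : j = i
        · subst h
          rw [Pi.mulSingle_eq_same]
          exact hr
        · rw [Pi.mulSingle_eq_of_ne h]
          exact D.one_mem
      · rw [map_one, map_one, mul_one, mul_one]
        rfl
    · exact ⟨1, fun _ => D.one_mem, Pi.mulSingle j (-1), 1, T.one_mem, by simp⟩
    · exact ⟨1, fun _ => D.one_mem, 1, t, ht, by simp⟩

/-- the parametrization -/
noncomputable def par (D : Subgroup (R2 F)) (T : Subgroup (Perm (Fin k))) (p : (Fin k → D) × (Fin l → ℤˣ) × T) : PH d D T :=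
  ⟨bet d (fun i => (p.1 i).1) * sgn d p.2.1 * tau d p.2.2.1, _, fun i => (p.1 i).2, _, _, p.2.2.2, rfl⟩

lemma par_bij (h2 : (2 : F) ≠ 0) (D : Subgroup (R2 F)) (T : Subgroup (Perm (Fin k))) : Function.Bijective (par d D T) := by
  classical
  constructor
  · rintro ⟨f, e, π, hπ⟩ ⟨f', e', π', hπ'⟩ h
    have h1 : ∀ v : (Fin k → Fin 2 → F) × (Fin l → F), ((fun i => (f i).1.1 (v.1 (π.symm i))), fun j => sg F (e j) * v.2 j) =
        ((fun i => (f' i).1.1 (v.1 (π'.symm i))), fun j => sg F (e' j) * v.2 j) := by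
      intro v
      have := congrArg (fun g : PH d D T => g.1.1 v) h
      exact this
    have hπ0 : π = π' := by
      by_contra hne
      obtain ⟨a, ha⟩ : ∃ a, π.symm a ≠ π'.symm a := by
        by_contra hc
        push Not at hc
        apply hne
        have : π.symm = π'.symm := Equiv.ext hc
        exact Equiv.symm_bijective.1 this
      have h3 := congrFun (congrArg Prod.fst (h1 (Pi.single (π.symm a) (f0 F), 0))) a
      simp only [Pi.single_eq_same] at h3
      rw [Pi.single_eq_of_ne ha.symm, map_zero] at h3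
      have h4 := (f a).1.1.map_eq_zero_iff.1 h3
      have h5 := congrFun h4 0
      simp [f0] at h5
    subst hπ0
    have hf : f = f' := by
      funext i
      apply Subtype.ext
      apply Subtype.ext
      apply LinearEquiv.ext
      intro u
      have h3 := congrFun (congrArg Prod.fst (h1 (Pi.single (π.symm i) u, 0))) i
      simpa using h3
    have he : e = e' := by
      funext j
      have h3 := congrFun (congrArg Prod.snd (h1 (0, Pi.single j 1))) j
      simp only [Pi.single_eq_same, mul_one] at h3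
      rcases Int.units_eq_one_or (e j) with h5 | h5 <;> rcases Int.units_eq_one_or (e' j) with h6 | h6
      · rw [h5, h6]
      · exfalso
        rw [h5, h6] at h3
        simp only [sg, Units.val_one, Int.cast_one, Units.val_neg, Int.cast_neg] at h3
        apply h2
        linear_combination h3
      · exfalso
        rw [h5, h6] at h3
        simp only [sg, Units.val_one, Int.cast_one, Units.val_neg, Int.cast_neg] at h3
        apply h2
        linear_combination -h3
      · rw [h5, h6]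
    subst hf he
    rfl
  · rintro ⟨g, f, hf, e, π, hπ, rfl⟩
    exact ⟨(fun i => ⟨f i, hf i⟩, e, ⟨π, hπ⟩), rfl⟩

lemma card_PH (h2 : (2 : F) ≠ 0) (D : Subgroup (R2 F)) (T : Subgroup (Perm (Fin k))) :
    Nat.card (PH d D T) = Nat.card D ^ k * 2 ^ l * Nat.card T := by
  rw [← Nat.card_congr (Equiv.ofBijective _ (par_bij d h2 D T)), Nat.card_prod, Nat.card_prod, Nat.card_fun, Nat.card_fun,
    Nat.card_eq_fintype_card (α := Fin k), Nat.card_eq_fintype_card (α := Fin l), Fintype.card_fin, Fintype.card_fin,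
    Nat.card_eq_fintype_card (α := ℤˣ), Fintype.card_units_int, mul_assoc]

lemma polar_QV (v w : (Fin k → Fin 2 → F) × (Fin l → F)) :
    QuadraticMap.polar (QV d) v w = (∑ i, QuadraticMap.polar (q2 F) (v.1 i) (w.1 i)) + ∑ j, d j * (2 * (v.2 j * w.2 j)) := by
  simp only [QuadraticMap.polar, QV_apply, Prod.fst_add, Prod.snd_add, Pi.add_apply]
  rw [Finset.sum_sub_distrib, Finset.sum_sub_distrib]
  have : ∑ j, d j * ((v.2 j + w.2 j) * (v.2 j + w.2 j)) = ∑ j, d j * (v.2 j * v.2 j) + ∑ j, d j * (w.2 j * w.2 j) + ∑ j, d j * (2 * (v.2 j * w.2 j)) := by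
    rw [← Finset.sum_add_distrib, ← Finset.sum_add_distrib]
    exact Finset.sum_congr rfl fun j _ => by ring
  rw [this]
  ring

lemma det_bet (f : Fin k → R2 F) : LinearMap.det ((bet d f).1 : ((Fin k → Fin 2 → F) × (Fin l → F)) →ₗ[F] _) = ∏ i, dt (f i).1 := by
  have e : ((bet d f).1 : ((Fin k → Fin 2 → F) × (Fin l → F)) →ₗ[F] ((Fin k → Fin 2 → F) × (Fin l → F))) =
      LinearMap.prodMap (LinearMap.pi fun i => ((f i).1 : (Fin 2 → F) →ₗ[F] (Fin 2 → F)).comp (LinearMap.proj i)) LinearMap.id := rfl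
  rw [e, LinearMap.det_prodMap, LinearMap.det_id, mul_one, LinearMap.det_pi]
  exact Finset.prod_congr rfl fun i _ => det_eq_dt _

lemma det_comm (g : OGrp (QV (k := k) d)) (hg : g ∈ commutator (OGrp (QV (k := k) d))) :
    LinearMap.det (g.1 : ((Fin k → Fin 2 → F) × (Fin l → F)) →ₗ[F] _) = 1 := by
  have h := Abelianization.commutator_subset_ker (LinearEquiv.det.comp (OGrp (QV (k := k) d)).subtype) hg
  rw [MonoidHom.mem_ker] at h
  have h' := congrArg Units.val h
  rw [Units.val_one] at h'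
  rw [← h']
  exact (LinearEquiv.coe_det g.1).symm

lemma dt_of_mem (i : Fin k) (r : R2 F) (h : emb d i r ∈ commutator (OGrp (QV (k := k) d))) : dt r.1 = 1 := by
  have h1 := det_comm d _ h
  rw [emb_eq, det_bet, Finset.prod_eq_single i] at h1
  · rwa [Pi.mulSingle_eq_same] at h1
  · intro j _ hj
    rw [Pi.mulSingle_eq_of_ne hj]
    exact dt_one
  · intro h
    exact absurd (Finset.mem_univ i) h

end CfsgLib.SOm
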