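import Cfsg.Agent.LibSOm4

set_option autoImplicit false

/-! The Sylow subgroup, Omega facts (lead). -/

namespace CfsgLib.SOm

open Cfsg.Agent.H22 Module Equiv

variable {F : Type*} [Field F] {k l : ℕ} (d : Fin l → F)

lemma comm_mem {G : Type*} [Group G] (a b : G) : a * b * a⁻¹ * b⁻¹ ∈ commutator G :=
  Subgroup.commutator_mem_commutator (Subgroup.mem_top a) (Subgroup.mem_top b)

lemma emb_mem (i i0 : Fin k) (r : R2 F) : emb d i r * emb d i0 r⁻¹ ∈ commutator (OGrp (QV (k := k) d)) := by
  have h := tau_emb d (Equiv.swap i0 i) i0 r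
  rw [Equiv.swap_apply_left] at h
  rw [← h, map_inv]
  exact comm_mem _ _

/-- permuting the first coordinates of the planes -/
noncomputable def tau0 (i j : Fin k) : OGrp (QV (k := k) d) :=
  ⟨LinearEquiv.prodCongr (LinearEquiv.ofInvolutive
    ({ toFun := fun x a b => if b = 0 then x (Equiv.swap i j a) b else x a b
       map_add' := fun x y => by
        funext a b
        by_cases h : b = 0 <;> simp [h]
       map_smul' := fun c x => by
        funext a b
        by_cases h : b = 0 <;> simp [h] } : (Fin k → Fin 2 → F) →ₗ[F] (Fin k → Fin 2 → F)) (by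
    intro x
    funext a b
    by_cases h : b = 0
    · simp [h]
    · simp [h])) (LinearEquiv.refl F _), by
    intro v
    rw [QV_apply, QV_apply]
    congr 1
    change ∑ a, q2 F (fun b => if b = 0 then v.1 (Equiv.swap i j a) b else v.1 a b) = _
    simp only [q2_apply]
    rw [Finset.sum_add_distrib, Finset.sum_add_distrib]
    congr 1
    exact Equiv.sum_comp (Equiv.swap i j) (fun a => v.1 a 0 * v.1 a 0)⟩

lemma tau0_apply (i j : Fin k) (v : (Fin k → Fin 2 → F) × (Fin l → F)) :
    (tau0 d i j).1 v = (fun a b => if b = 0 then v.1 (Equiv.swap i j a) b else v.1 a b, v.2) := rfl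

lemma tau0_sq (i j : Fin k) : tau0 d i j * tau0 d i j = 1 := by
  apply og_ext'
  intro v
  change (tau0 d i j).1 ((tau0 d i j).1 v) = v
  rw [tau0_apply, tau0_apply]
  apply Prod.ext
  · funext a b
    by_cases h : b = 0 <;> simp [h]
  · rfl

/-- coordinate swap of a plane -/
noncomputable def csw (F : Type*) [Field F] : R2 F := ⟨LinearEquiv.funCongrLeft F F (Equiv.swap 0 1), by
  intro u
  rw [q2_apply, q2_apply]
  simp only [LinearEquiv.funCongrLeft_apply, LinearMap.funLeft_apply, Equiv.swap_apply_left, Equiv.swap_apply_right]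
  ring⟩

lemma csw_apply (u : Fin 2 → F) (b : Fin 2) : (csw F).1 u b = u (Equiv.swap 0 1 b) := rfl

lemma dt_csw : dt (csw F).1 = -1 := by
  simp [dt, csw_apply, f0, f1]

lemma tau_swap (i j : Fin k) : tau d (Equiv.swap i j) ∈ commutator (OGrp (QV (k := k) d)) := by
  have h1 : tau d (Equiv.swap i j) = tau0 d i j * bet d (fun _ => csw F) * (tau0 d i j)⁻¹ * (bet d (fun _ => csw F))⁻¹ := by
    have e1 : (tau0 d i j)⁻¹ = tau0 d i j := inv_eq_of_mul_eq_one_left (tau0_sq d i j)
    have e2 : (bet d (fun _ : Fin k => csw F))⁻¹ = bet d (fun _ => csw F) := by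
      apply inv_eq_of_mul_eq_one_left
      apply og_ext'
      intro v
      apply Prod.ext
      · funext a b
        change v.1 a (Equiv.swap 0 1 (Equiv.swap 0 1 b)) = v.1 a b
        rw [Equiv.swap_apply_self]
      · rfl
    rw [e1, e2]
    apply og_ext'
    intro v
    apply Prod.ext
    · funext a b
      change v.1 ((Equiv.swap i j).symm a) b = ((tau0 d i j).1 ((bet d (fun _ => csw F)).1 ((tau0 d i j).1 ((bet d (fun _ => csw F)).1 v)))).1 a b
      fin_cases b
      · simp [tau0_apply, bet_apply, csw_apply]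
      · simp [tau0_apply, bet_apply, csw_apply]
    · rfl
  rw [h1]
  exact comm_mem _ _

lemma tau_mem (π : Perm (Fin k)) : tau d π ∈ commutator (OGrp (QV (k := k) d)) := by
  have h : (⊤ : Subgroup (Perm (Fin k))) ≤ (commutator (OGrp (QV (k := k) d))).comap (tau d) := by
    rw [← Equiv.Perm.closure_isSwap, Subgroup.closure_le]
    rintro _ ⟨i, j, hij, rfl⟩
    exact tau_swap d i j
  exact h (Subgroup.mem_top π)

section refl
variable (h2 : (2 : F) ≠ 0)

/-- reflection in a plane -/
lemma emb_refl (i : Fin k) (w : Fin 2 → F) (hw : q2 F w ≠ 0) (hw' : QV (k := k) d (Pi.single i w, 0) ≠ 0) :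
    emb d i (oRefl (q2 F) w hw) = oRefl (QV d) (Pi.single i w, 0) hw' := by
  classical
  have hQ : QV (k := k) d (Pi.single i w, 0) = q2 F w := by
    rw [QV_apply, Finset.sum_eq_single i]
    · simp
    · intro j _ hj
      simp [Pi.single_eq_of_ne hj]
    · intro h
      exact absurd (Finset.mem_univ i) h
  apply og_ext'
  intro v
  rw [oRefl_apply, polar_QV, hQ]
  apply Prod.ext
  · funext a
    rw [Finset.sum_eq_single i]
    · by_cases h : a = i
      · subst h
        change ((Pi.mulSingle a (oRefl (q2 F) w hw) : Fin k → R2 F) a).1 (v.1 a) = _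
        rw [Pi.mulSingle_eq_same, oRefl_apply]
        simp
      · change ((Pi.mulSingle i (oRefl (q2 F) w hw) : Fin k → R2 F) a).1 (v.1 a) = _
        rw [Pi.mulSingle_eq_of_ne h]
        simp [Pi.single_eq_of_ne h]
    · intro j _ hj
      simp [Pi.single_eq_of_ne hj]
    · intro h
      exact absurd (Finset.mem_univ i) h
  · change v.2 = _
    simp

lemma sgn_refl (j : Fin l) (hw' : QV (k := k) d (0, Pi.single j 1) ≠ 0) :
    sgn d (Pi.mulSingle j (-1)) = oRefl (QV (k := k) d) (0, Pi.single j 1) hw' := by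
  classical
  have hQ : QV (k := k) d (0, Pi.single j 1) = d j := by
    rw [QV_apply, Finset.sum_eq_single (s := Finset.univ (α := Fin l)) j]
    · simp
    · intro a _ ha
      simp [Pi.single_eq_of_ne ha]
    · intro h
      exact absurd (Finset.mem_univ j) h
  have hd : d j ≠ 0 := by rwa [hQ] at hw'
  apply og_ext'
  intro v
  rw [oRefl_apply, polar_QV, hQ]
  apply Prod.ext
  · simp [sgn_apply]
  · funext a
    rw [Finset.sum_eq_single (s := Finset.univ (α := Fin l)) j]
    · by_cases h : a = j
      · subst h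
        rw [sgn_apply]
        simp only [Pi.mulSingle_eq_same, sg, Units.val_neg, Units.val_one, Int.cast_neg, Int.cast_one]
        simp
        field_simp
        ring
      · rw [sgn_apply]
        simp [Pi.mulSingle_eq_of_ne h, Pi.single_eq_of_ne h, sg]
    · intro a _ ha
      simp [Pi.single_eq_of_ne ha]
    · intro h
      exact absurd (Finset.mem_univ j) h

include h2

lemma exists_r (j : Fin l) (hd : d j ≠ 0) (i : Fin k) (w : Fin 2 → F) (hw : q2 F w = d j) :
    ∃ r : R2 F, r * r = 1 ∧ sgn d (Pi.mulSingle j (-1)) * emb d i r ∈ commutator (OGrp (QV (k := k) d)) := by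
  classical
  have hw0 : q2 F w ≠ 0 := by rwa [hw]
  have hQ1 : QV (k := k) d (Pi.single i w, 0) = d j := by
    rw [QV_apply, Finset.sum_eq_single i, ← hw]
    · simp
    · intro j _ hj
      simp [Pi.single_eq_of_ne hj]
    · intro h
      exact absurd (Finset.mem_univ i) h
  have hQ2 : QV (k := k) d (0, Pi.single j 1) = d j := by
    rw [QV_apply, Finset.sum_eq_single (s := Finset.univ (α := Fin l)) j]
    · simp
    · intro a _ ha
      simp [Pi.single_eq_of_ne ha]
    · intro h
      exact absurd (Finset.mem_univ j) h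
  have hp : QuadraticMap.polar (QV (k := k) d) (0, Pi.single j 1) (Pi.single i w, 0) = 0 := by
    rw [polar_QV]
    simp
  have h1 : QV (k := k) d (Pi.single i w, 0) ≠ 0 := by rwa [hQ1]
  have h3 : QV (k := k) d (0, Pi.single j 1) ≠ 0 := by rwa [hQ2]
  have hx : QV (k := k) d ((0, Pi.single j 1) - (Pi.single i w, 0)) = 2 * d j := by
    rw [qsub, hp, hQ1, hQ2]
    ring
  have hx0 : QV (k := k) d ((0, Pi.single j 1) - (Pi.single i w, 0)) ≠ 0 := by
    rw [hx]
    exact mul_ne_zero h2 hd
  refine ⟨oRefl (q2 F) w hw0, oRefl_mul_self _ _, ?_⟩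
  rw [emb_refl d i w hw0 h1, sgn_refl d j h3]
  have hg : (oRefl (QV (k := k) d) _ hx0).1 (0, Pi.single j 1) = (Pi.single i w, 0) := by
    rw [oRefl_apply, hx]
    have : QuadraticMap.polar (QV (k := k) d) ((0, Pi.single j 1) - (Pi.single i w, 0)) (0, Pi.single j 1) = 2 * d j := by
      rw [QuadraticMap.polar_sub_left, pself, hQ2, QuadraticMap.polar_comm, hp, sub_zero]
    rw [this, inv_mul_cancel₀ (mul_ne_zero h2 hd), one_smul, sub_sub_cancel]
  have hc := conj_oRefl (Q := QV (k := k) d) (oRefl (QV (k := k) d) _ hx0) _ _ h3 h1 hg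
  rw [← hc]
  have hi : (oRefl (QV (k := k) d) (0, Pi.single j 1) h3)⁻¹ = oRefl (QV (k := k) d) (0, Pi.single j 1) h3 := oRefl_inv _ _
  have := comm_mem (oRefl (QV (k := k) d) (0, Pi.single j 1) h3) (oRefl (QV (k := k) d) _ hx0)
  rw [hi] at this
  convert this using 1
  group

end refl

end CfsgLib.SOm
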