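import Cfsg.Agent.LibSOm5

set_option autoImplicit false

/-! The main theorem (lead). -/

namespace CfsgLib.SOm

open Cfsg.Agent.H22 Module Equiv

variable {F : Type*} [Field F] [Fintype F] {k l : ℕ} (d : Fin l → F)

omit [Fintype F] in
lemma finite_O {V : Type*} [AddCommGroup V] [Module F V] [Finite V] (Q : QuadraticForm F V) : Finite (OGrp Q) := by
  have : Finite (V ≃ₗ[F] V) := Finite.of_injective (fun e => (e : V → V)) DFunLike.coe_injective
  infer_instance

lemma exists_q2 (h2 : (2 : F) ≠ 0) (c : F) : ∃ w : Fin 2 → F, q2 F w = c := by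
  have hodd : Fintype.card F % 2 = 1 := by
    apply FiniteField.odd_card_of_char_ne_two
    intro h
    apply h2
    have : CharP F 2 := by
      rw [← h]
      exact ringChar.charP F
    exact CharP.cast_eq_zero F 2
  obtain ⟨a, b, hab⟩ := FiniteField.exists_root_sum_quadratic (R := F) (f := Polynomial.X ^ 2) (g := Polynomial.X ^ 2 - Polynomial.C c)
    (by rw [Polynomial.degree_X_pow]; rfl) (Polynomial.degree_X_pow_sub_C (by norm_num) c) hodd
  refine ⟨![a, b], ?_⟩
  rw [q2_apply]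
  simp only [Polynomial.eval_pow, Polynomial.eval_X, Polynomial.eval_sub, Polynomial.eval_C] at hab
  simp only [Matrix.cons_val_zero, Matrix.cons_val_one]
  linear_combination hab

theorem se_QV (h2 : (2 : F) ≠ 0) (hk : 2 ≤ k) (hd : ∀ j, d j ≠ 0)
    (hcard : padicValNat 2 (Nat.card (OGrp (QV (k := k) d))) = k * padicValNat 2 (Nat.card (R2 F)) + l + padicValNat 2 k.factorial) :
    SE' (commutator (OGrp (QV (k := k) d))) := by
  classical
  have hfin : Finite (OGrp (QV (k := k) d)) := finite_O _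
  have hfin2 : Finite (R2 F) := finite_O _
  have hprime : Fact (Nat.Prime 2) := ⟨Nat.prime_two⟩
  obtain ⟨T, hTc, hTg⟩ := exists_T k
  let DS : Sylow 2 (R2 F) := default
  set D : Subgroup (R2 F) := DS.toSubgroup with hDdef
  have hDc : Nat.card D = 2 ^ padicValNat 2 (Nat.card (R2 F)) := by
    rw [← Nat.factorization_def _ Nat.prime_two]
    exact DS.card_eq_multiplicity
  have hPc : Nat.card (PH d D T) = 2 ^ padicValNat 2 (Nat.card (OGrp (QV (k := k) d))) := by
    rw [card_PH d h2, hDc, hTc, hcard, Nat.card_eq_fintype_card (α := Fin k), Fintype.card_fin, ← pow_mul, ← pow_add, ← pow_add]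
    congr 1
    ring
  have hinv : ∀ r : R2 F, r * r = 1 → ∃ h : R2 F, h * r * h⁻¹ ∈ D := by
    intro r hr
    have hp : IsPGroup 2 (Subgroup.zpowers r) := by
      apply IsPGroup.of_card (n := padicValNat 2 (Nat.card (Subgroup.zpowers r)))
      have hdvd : Nat.card (Subgroup.zpowers r) ∣ 2 := by
        rw [Nat.card_zpowers]
        exact orderOf_dvd_of_pow_eq_one (by rw [pow_two]; exact hr)
      rcases (Nat.dvd_prime Nat.prime_two).1 hdvd with h | h
      · rw [h]; simp
      · rw [h]; simp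
    obtain ⟨S, hS⟩ := hp.exists_le_sylow
    obtain ⟨g, hg⟩ := MulAction.exists_smul_eq (R2 F) S DS
    refine ⟨g, ?_⟩
    have h1 : r ∈ (S : Subgroup (R2 F)) := hS (Subgroup.mem_zpowers r)
    rw [hDdef, ← hg]
    exact ⟨r, h1, rfl⟩
  have hrefl : ∃ r ∈ D, dt r.1 = -1 := by
    obtain ⟨h, hh⟩ := hinv (csw F) (sq_of_dt h2 _ dt_csw)
    refine ⟨_, hh, ?_⟩
    have : dt ((h * csw F * h⁻¹ : R2 F) : (Fin 2 → F) ≃ₗ[F] (Fin 2 → F)) * dt h.1 = dt h.1 * dt (csw F).1 := by
      rw [← dt_mul, ← dt_mul, ← Subgroup.coe_mul, ← Subgroup.coe_mul, inv_mul_cancel_right]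
    rw [mul_comm (dt h.1)] at this
    have hne : dt h.1 ≠ 0 := by
      intro h0
      have := dt_sq h2 h
      rw [h0, mul_zero] at this
      exact zero_ne_one this
    rw [mul_right_cancel₀ hne this, dt_csw]
  obtain ⟨r0, hr0, hr0d⟩ := hrefl
  let i0 : Fin k := ⟨0, by omega⟩
  let i1 : Fin k := ⟨1, by omega⟩
  have h01 : i1 ≠ i0 := by
    intro h
    have := congrArg Fin.val h
    exact absurd this (by norm_num)
  refine se_of_key (commutator (OGrp (QV (k := k) d))) (PH d D T) ?_ ?_ ?_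
  · exact IsPGroup.of_card hPc
  · intro hdvd
    have h1 := (PH d D T).card_mul_index
    have h3 : 2 ^ (padicValNat 2 (Nat.card (OGrp (QV (k := k) d))) + 1) ∣ Nat.card (OGrp (QV (k := k) d)) := by
      rw [pow_succ]
      conv_rhs => rw [← h1, hPc]
      exact mul_dvd_mul_left _ hdvd
    have hpos : Nat.card (OGrp (QV (k := k) d)) ≠ 0 := Nat.card_pos.ne'
    rw [padicValNat_dvd_iff_le hpos] at h3
    omega
  · refine key (commutator (OGrp (QV (k := k) d))) i0 i1 h01 (emb d) (fun i hi a b => emb_comm d i i0 hi a b) D (D_le h2 D r0 hr0 hr0d)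
      ?_ (fun i r _ => emb_mem d i i0 r) {g | ∃ j, g = sgn d (Pi.mulSingle j (-1))} ?_
      {g | ∃ t ∈ T, t * t = 1 ∧ g = tau d t} ?_ (PH d D T) (PH_closure d D T hTg)
    · intro e he hem
      exact ⟨r0, hr0, sq_of_dt h2 _ hr0d, conj_of_dt h2 _ _ hr0d (dt_of_mem d i0 e hem)⟩
    · rintro _ ⟨j, rfl⟩
      refine ⟨?_, ?_⟩
      · rw [← map_mul, ← Pi.mulSingle_mul]
        simp
      · obtain ⟨w, hw⟩ := exists_q2 h2 (d j)
        obtain ⟨r, hr, hrm⟩ := exists_r d h2 j (hd j) i0 w hw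
        obtain ⟨h, hh⟩ := hinv r hr
        refine ⟨_, hh, ?_, ?_, ?_⟩
        · calc h * r * h⁻¹ * (h * r * h⁻¹) = h * (r * r) * h⁻¹ := by group
            _ = 1 := by rw [hr]; group
        · exact (bet_sgn d _ _).symm
        · have e : sgn d (Pi.mulSingle j (-1)) * emb d i0 (h * r * h⁻¹) =
              (sgn d (Pi.mulSingle j (-1)) * emb d i0 r) * (emb d i0 r⁻¹ * emb d i0 h * (emb d i0 r⁻¹)⁻¹ * (emb d i0 h)⁻¹) := by
            simp only [map_mul, map_inv]
            group
          rw [e]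
          exact Subgroup.mul_mem _ hrm (comm_mem _ _)
    · rintro _ ⟨t, ht, ht2, rfl⟩
      refine ⟨?_, tau_mem d t⟩
      rw [← map_mul, ht2, map_one]

end CfsgLib.SOm
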