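import Cfsg.Agent.LibSOm6

set_option autoImplicit false

/-! Isometries (lead). -/

namespace CfsgLib.SOm

open Cfsg.Agent.H22 Module Equiv

section iso
variable {F : Type*} [Field F] {V V' : Type*} [AddCommGroup V] [Module F V] [AddCommGroup V'] [Module F V']

/-- transport of orthogonal groups -/
noncomputable def oEquiv {Q : QuadraticForm F V} {Q' : QuadraticForm F V'} (e : V ≃ₗ[F] V') (h : ∀ v, Q' (e v) = Q v) :
    OGrp Q ≃* OGrp Q' where
  toFun g := ⟨(e.symm.trans g.1).trans e, fun v => by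
    change Q' (e (g.1 (e.symm v))) = Q' v
    rw [h, g.2, ← h, LinearEquiv.apply_symm_apply]⟩
  invFun g := ⟨(e.trans g.1).trans e.symm, fun v => by
    change Q (e.symm (g.1 (e v))) = Q v
    rw [← h, LinearEquiv.apply_symm_apply, g.2, h]⟩
  left_inv g := by
    apply Subtype.ext
    apply LinearEquiv.ext
    intro v
    change e.symm (e (g.1 (e.symm (e v)))) = g.1 v
    simp
  right_inv g := by
    apply Subtype.ext
    apply LinearEquiv.ext
    intro v
    change e (e.symm (g.1 (e (e.symm v)))) = g.1 v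
    simp
  map_mul' a b := by
    apply Subtype.ext
    apply LinearEquiv.ext
    intro v
    change e (a.1 (b.1 (e.symm v))) = e (a.1 (e.symm (e (b.1 (e.symm v)))))
    simp

lemma exists_oEquiv [FiniteDimensional F V] [FiniteDimensional F V'] {Q : QuadraticForm F V} {Q' : QuadraticForm F V'}
    (φ : V →ₗ[F] V') (h : ∀ v, Q' (φ v) = Q v) (hQ : ∀ v, (∀ w, QuadraticMap.polar Q v w = 0) → v = 0)
    (hd : finrank F V = finrank F V') : Nonempty (OGrp Q ≃* OGrp Q') := by
  have hinj : Function.Injective φ := by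
    rw [injective_iff_map_eq_zero]
    intro v hv
    apply hQ
    intro w
    have h1 : QuadraticMap.polar Q v w = QuadraticMap.polar Q' (φ v) (φ w) := by
      simp only [QuadraticMap.polar]
      rw [← map_add, h, h, h]
    rw [h1, hv]
    simp
  exact ⟨oEquiv (LinearEquiv.ofInjectiveOfFinrankEq φ hinj hd) (fun v => by
    have : (LinearEquiv.ofInjectiveOfFinrankEq φ hinj hd) v = φ v := rfl
    rw [this, h])⟩

end iso

variable {F : Type*} [Field F]

lemma polar_zero_QV {k l : ℕ} (d : Fin l → F) (h2 : (2 : F) ≠ 0) (hd : ∀ j, d j ≠ 0) (v : (Fin k → Fin 2 → F) × (Fin l → F))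
    (h : ∀ w, QuadraticMap.polar (QV d) v w = 0) : v = 0 := by
  classical
  apply Prod.ext
  · funext i a
    have h1 := h (Pi.single i (Pi.single a 1), 0)
    rw [polar_QV, Finset.sum_eq_single i] at h1
    · simp only [Pi.single_eq_same, polar_q2] at h1
      fin_cases a
      · simpa [h2] using h1
      · simpa [h2] using h1
    · intro j _ hj
      simp [Pi.single_eq_of_ne hj]
    · intro h
      exact absurd (Finset.mem_univ i) h
  · funext j
    have h1 := h (0, Pi.single j 1)
    rw [polar_QV, Finset.sum_eq_single (s := Finset.univ (α := Fin l)) j] at h1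
    · simpa [h2, hd j] using h1
    · intro a _ ha
      simp [Pi.single_eq_of_ne ha]
    · intro h
      exact absurd (Finset.mem_univ j) h

lemma finrank_VV (k l : ℕ) : finrank F ((Fin k → Fin 2 → F) × (Fin l → F)) = 2 * k + l := by
  rw [Module.finrank_prod]
  simp [Module.finrank_pi_fintype]
  ring

/-- representability -/
lemma rep {V : Type*} [AddCommGroup V] [Module F V] [FiniteDimensional F V] {Q : QuadraticForm F V} {k l : ℕ} (d : Fin l → F)
    (h2 : (2 : F) ≠ 0) (hd : ∀ j, d j ≠ 0) (φ : ((Fin k → Fin 2 → F) × (Fin l → F)) →ₗ[F] V) (h : ∀ v, Q (φ v) = QV d v)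
    (hfr : finrank F V = 2 * k + l) : Nonempty (OGrp (QV (k := k) d) ≃* OGrp Q) :=
  exists_oEquiv φ h (polar_zero_QV d h2 hd) (by rw [finrank_VV, hfr])

/-- `-1` is a similarity factor of `⟨1,…,1⟩` -/
def NegM (F : Type*) [Field F] (n : ℕ) : Prop := ∃ W : (Fin n → F) →ₗ[F] (Fin n → F), ∀ v, ∑ t, W v t * W v t = -∑ t, v t * v t

lemma negM_sq (h : IsSquare (-1 : F)) (n : ℕ) : NegM F n := by
  obtain ⟨i, hi⟩ := h
  refine ⟨i • LinearMap.id, fun v => ?_⟩
  rw [← Finset.sum_neg_distrib]
  refine Finset.sum_congr rfl fun t _ => ?_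
  simp only [LinearMap.smul_apply, LinearMap.id_coe, id_eq, Pi.smul_apply, smul_eq_mul]
  linear_combination (-(v t * v t)) * hi

lemma negM_even [Fintype F] (h2 : (2 : F) ≠ 0) (n : ℕ) (hn : Even n) : NegM F n := by
  obtain ⟨w, hw⟩ := exists_q2 h2 (-1 : F)
  rw [q2_apply] at hw
  obtain ⟨m, rfl⟩ := hn
  let e : Fin (m + m) ≃ Fin m ⊕ Fin m := finSumFinEquiv.symm
  refine ⟨{ toFun := fun v t => Sum.elim (fun a => w 0 * v (e.symm (Sum.inl a)) - w 1 * v (e.symm (Sum.inr a)))
              (fun a => w 1 * v (e.symm (Sum.inl a)) + w 0 * v (e.symm (Sum.inr a))) (e t)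
            map_add' := fun x y => by
              funext t
              rcases h : e t with a | a
              · simp only [h, Pi.add_apply, Sum.elim_inl]; ring
              · simp only [h, Pi.add_apply, Sum.elim_inr]; ring
            map_smul' := fun c x => by
              funext t
              rcases h : e t with a | a
              · simp only [h, Pi.smul_apply, smul_eq_mul, RingHom.id_apply, Sum.elim_inl]; ring
              · simp only [h, Pi.smul_apply, smul_eq_mul, RingHom.id_apply, Sum.elim_inr]; ring }, fun v => ?_⟩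
  rw [← Equiv.sum_comp e.symm, ← Equiv.sum_comp e.symm (fun t => v t * v t), Fintype.sum_sum_type, Fintype.sum_sum_type,
    ← Finset.sum_add_distrib, ← Finset.sum_add_distrib, ← Finset.sum_neg_distrib]
  refine Finset.sum_congr rfl fun t _ => ?_
  simp only [LinearMap.coe_mk, AddHom.coe_mk, Equiv.apply_symm_apply, Sum.elim_inl, Sum.elim_inr]
  linear_combination (v (e.symm (Sum.inl t)) * v (e.symm (Sum.inl t)) + v (e.symm (Sum.inr t)) * v (e.symm (Sum.inr t))) * hw

/-- second coordinates -/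
def s1 (k l : ℕ) : ((Fin k → Fin 2 → F) × (Fin l → F)) →ₗ[F] (Fin k → F) where
  toFun v t := v.1 t 1
  map_add' _ _ := rfl
  map_smul' _ _ := rfl

lemma s1_apply (k l : ℕ) (v : (Fin k → Fin 2 → F) × (Fin l → F)) (t : Fin k) : s1 (F := F) k l v t = v.1 t 1 := rfl

/-- the second coordinates, without the first plane -/
def s1' (k l : ℕ) : ((Fin (k + 1) → Fin 2 → F) × (Fin l → F)) →ₗ[F] (Fin k → F) where
  toFun v t := v.1 t.succ 1
  map_add' _ _ := rfl
  map_smul' _ _ := rfl

theorem rep_plus1 (h2 : (2 : F) ≠ 0) (m : ℕ) (h : NegM F m) : Nonempty (OGrp (QV (k := m) (l := 0) (F := F) ![]) ≃* OGrp (qPlus m F)) := by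
  obtain ⟨W, hW⟩ := h
  refine rep _ h2 (fun j => j.elim0) { toFun := fun v => Sum.elim (fun t => v.1 t 0 - W (s1 m 0 v) t) (fun t => v.1 t 0 + W (s1 m 0 v) t), map_add' := fun x y => ?_, map_smul' := fun c x => ?_ } (fun v => ?_) ?_
  · funext t
    rcases t with t | t <;> simp <;> ring
  · funext t
    rcases t with t | t <;> simp <;> ring
  · rw [coe_qPlus, QV_apply]
    simp only [Cfsg.quadFormPlus, LinearMap.coe_mk, AddHom.coe_mk, Sum.elim_inl, Sum.elim_inr, q2_apply]
    have h3 := hW (s1 m 0 v)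
    simp only [s1_apply] at h3
    simp only [Finset.univ_eq_empty, Finset.sum_empty, add_zero, Finset.sum_add_distrib]
    have : ∀ t : Fin m, (v.1 t 0 - W (s1 m 0 v) t) * (v.1 t 0 + W (s1 m 0 v) t) = v.1 t 0 * v.1 t 0 - W (s1 m 0 v) t * W (s1 m 0 v) t := fun t => by ring
    simp only [this, Finset.sum_sub_distrib, h3]
    ring
  · simp
    ring

theorem rep_plus2 (h2 : (2 : F) ≠ 0) (n : ℕ) (h : NegM F n) :
    Nonempty (OGrp (QV (k := n) (l := 2) (F := F) ![1, -1]) ≃* OGrp (qPlus (n + 1) F)) := by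
  obtain ⟨W, hW⟩ := h
  refine rep _ h2 (fun j => by fin_cases j <;> simp) { toFun := fun v => (Sum.elim
      (Fin.cases (v.2 0 + v.2 1) (fun t => v.1 t 0 - W (s1 n 2 v) t))
      (Fin.cases (v.2 0 - v.2 1) (fun t => v.1 t 0 + W (s1 n 2 v) t))), map_add' := fun x y => ?_, map_smul' := fun c x => ?_ } (fun v => ?_) ?_
  · funext t
    rcases t with t | t <;> refine Fin.cases ?_ (fun t => ?_) t <;> simp <;> ring
  · funext t
    rcases t with t | t <;> refine Fin.cases ?_ (fun t => ?_) t <;> simp <;> ring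
  · rw [coe_qPlus, QV_apply]
    simp only [Cfsg.quadFormPlus, LinearMap.coe_mk, AddHom.coe_mk, Sum.elim_inl, Sum.elim_inr, q2_apply, Fin.sum_univ_succ (n := n), Fin.cases_zero, Fin.cases_succ,
      Fin.sum_univ_two, Matrix.cons_val_zero, Matrix.cons_val_one]
    have h3 := hW (s1 n 2 v)
    simp only [s1_apply] at h3
    simp only [Finset.sum_add_distrib]
    have : ∀ t : Fin n, (v.1 t 0 - W (s1 n 2 v) t) * (v.1 t 0 + W (s1 n 2 v) t) = v.1 t 0 * v.1 t 0 - W (s1 n 2 v) t * W (s1 n 2 v) t := fun t => by ring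
    simp only [this, Finset.sum_sub_distrib, h3]
    ring
  · simp
    ring

theorem rep_odd1 (h2 : (2 : F) ≠ 0) (m : ℕ) (h : NegM F m) : Nonempty (OGrp (QV (k := m) (l := 1) (F := F) ![1]) ≃* OGrp (qOdd m F)) := by
  obtain ⟨W, hW⟩ := h
  refine rep _ h2 (fun j => by fin_cases j; simp) { toFun := fun v => Sum.elim (fun _ => v.2 0) (Sum.elim (fun t => v.1 t 0 - W (s1 m 1 v) t) (fun t => v.1 t 0 + W (s1 m 1 v) t)), map_add' := fun x y => ?_, map_smul' := fun c x => ?_ } (fun v => ?_) ?_
  · funext t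
    rcases t with t | t | t <;> simp <;> ring
  · funext t
    rcases t with t | t | t <;> simp <;> ring
  · rw [coe_qOdd, QV_apply]
    simp only [Cfsg.quadFormOdd, LinearMap.coe_mk, AddHom.coe_mk, Sum.elim_inl, Sum.elim_inr, q2_apply, Fin.sum_univ_one, Matrix.cons_val_zero]
    have h3 := hW (s1 m 1 v)
    simp only [s1_apply] at h3
    simp only [Finset.sum_add_distrib]
    have : ∀ t : Fin m, (v.1 t 0 - W (s1 m 1 v) t) * (v.1 t 0 + W (s1 m 1 v) t) = v.1 t 0 * v.1 t 0 - W (s1 m 1 v) t * W (s1 m 1 v) t := fun t => by ring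
    simp only [this, Finset.sum_sub_distrib, h3]
    simp
    ring
  · simp
    ring

theorem rep_odd2 (h2 : (2 : F) ≠ 0) (n : ℕ) (h : NegM F n) :
    Nonempty (OGrp (QV (k := n + 1) (l := 1) (F := F) ![-1]) ≃* OGrp (qOdd (n + 1) F)) := by
  obtain ⟨W, hW⟩ := h
  refine rep _ h2 (fun j => by fin_cases j; simp) { toFun := fun v => Sum.elim (fun _ => v.1 0 0) (Sum.elim
      (Fin.cases (v.1 0 1 - v.2 0) (fun t => v.1 t.succ 0 - W (s1' n 1 v) t))
      (Fin.cases (v.1 0 1 + v.2 0) (fun t => v.1 t.succ 0 + W (s1' n 1 v) t))), map_add' := fun x y => ?_, map_smul' := fun c x => ?_ } (fun v => ?_) ?_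
  · funext t
    rcases t with t | t | t
    · simp
    · refine Fin.cases ?_ (fun t => ?_) t <;> simp <;> ring
    · refine Fin.cases ?_ (fun t => ?_) t <;> simp <;> ring
  · funext t
    rcases t with t | t | t
    · simp
    · refine Fin.cases ?_ (fun t => ?_) t <;> simp <;> ring
    · refine Fin.cases ?_ (fun t => ?_) t <;> simp <;> ring
  · rw [coe_qOdd, QV_apply]
    simp only [Cfsg.quadFormOdd, LinearMap.coe_mk, AddHom.coe_mk, Sum.elim_inl, Sum.elim_inr, q2_apply, Fin.sum_univ_succ (n := n), Fin.cases_zero, Fin.cases_succ,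
      Fin.sum_univ_one, Matrix.cons_val_zero]
    have h3 := hW (s1' n 1 v)
    have h4 : ∀ t, s1' (F := F) n 1 v t = v.1 t.succ 1 := fun t => rfl
    simp only [h4] at h3
    simp only [Finset.sum_add_distrib]
    have : ∀ t : Fin n, (v.1 t.succ 0 - W (s1' n 1 v) t) * (v.1 t.succ 0 + W (s1' n 1 v) t) = v.1 t.succ 0 * v.1 t.succ 0 - W (s1' n 1 v) t * W (s1' n 1 v) t := fun t => by ring
    simp only [this, Finset.sum_sub_distrib, h3]
    simp
    ring
  · simp
    ring

theorem rep_minus1 (h2 : (2 : F) ≠ 0) (n : ℕ) (h : NegM F n) (a b : F) (hδ : b - a ^ 2 / 4 ≠ 0) :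
    Nonempty (OGrp (QV (k := n) (l := 2) (F := F) ![1, b - a ^ 2 / 4]) ≃* OGrp (qMinus n F a b)) := by
  obtain ⟨W, hW⟩ := h
  have h4 : (4 : F) ≠ 0 := by
    have : (4 : F) = 2 * 2 := by norm_num
    rw [this]
    exact mul_ne_zero h2 h2
  refine rep _ h2 (fun j => by fin_cases j <;> simp [hδ]) { toFun := fun v => Sum.elim (Sum.elim
      (fun t => v.1 t 0 - W (s1 n 2 v) t) (fun t => v.1 t 0 + W (s1 n 2 v) t)) ![v.2 0 - a / 2 * v.2 1, v.2 1], map_add' := fun x y => ?_, map_smul' := fun c x => ?_ } (fun v => ?_) ?_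
  · funext t
    rcases t with (t | t) | t
    · simp; ring
    · simp; ring
    · fin_cases t
      · simp; ring
      · simp
  · funext t
    rcases t with (t | t) | t
    · simp; ring
    · simp; ring
    · fin_cases t
      · simp; ring
      · simp
  · rw [coe_qMinus, QV_apply]
    simp only [Cfsg.quadFormMinus, LinearMap.coe_mk, AddHom.coe_mk, Sum.elim_inl, Sum.elim_inr, q2_apply, 
      Fin.sum_univ_two, Matrix.cons_val_zero, Matrix.cons_val_one]
    have h3 := hW (s1 n 2 v)
    simp only [s1_apply] at h3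
    simp only [Finset.sum_add_distrib]
    have : ∀ t : Fin n, (v.1 t 0 - W (s1 n 2 v) t) * (v.1 t 0 + W (s1 n 2 v) t) = v.1 t 0 * v.1 t 0 - W (s1 n 2 v) t * W (s1 n 2 v) t := fun t => by ring
    simp only [this, Finset.sum_sub_distrib, h3]
    field_simp
    ring
  · simp
    ring

theorem rep_minus2 (h2 : (2 : F) ≠ 0) (n : ℕ) (h : NegM F n) (a b c : F) (hc : c ≠ 0) (hδ : b - a ^ 2 / 4 = c * c) :
    Nonempty (OGrp (QV (k := n + 1) (l := 0) (F := F) ![]) ≃* OGrp (qMinus n F a b)) := by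
  obtain ⟨W, hW⟩ := h
  have h4 : (4 : F) ≠ 0 := by
    have : (4 : F) = 2 * 2 := by norm_num
    rw [this]
    exact mul_ne_zero h2 h2
  have hb : b = c * c + a ^ 2 / 4 := by rw [← hδ]; ring
  refine rep _ h2 (fun j => j.elim0) { toFun := fun v => Sum.elim (Sum.elim
      (fun t => v.1 t.succ 0 - W (s1' n 0 v) t) (fun t => v.1 t.succ 0 + W (s1' n 0 v) t)) ![v.1 0 0 - a / 2 * (v.1 0 1 / c), v.1 0 1 / c], map_add' := fun x y => ?_, map_smul' := fun c x => ?_ } (fun v => ?_) ?_
  · funext t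
    rcases t with (t | t) | t
    · simp; ring
    · simp; ring
    · fin_cases t
      · simp; ring
      · simp; ring
  · funext t
    rcases t with (t | t) | t
    · simp; ring
    · simp; ring
    · fin_cases t
      · simp; ring
      · simp; ring
  · rw [coe_qMinus, QV_apply]
    simp only [Cfsg.quadFormMinus, LinearMap.coe_mk, AddHom.coe_mk, Sum.elim_inl, Sum.elim_inr, q2_apply, Fin.sum_univ_succ (n := n),
      Matrix.cons_val_zero, Matrix.cons_val_one]
    have h3 := hW (s1' n 0 v)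
    have h4 : ∀ t, s1' (F := F) n 0 v t = v.1 t.succ 1 := fun t => rfl
    simp only [h4] at h3
    simp only [Finset.sum_add_distrib]
    have : ∀ t : Fin n, (v.1 t.succ 0 - W (s1' n 0 v) t) * (v.1 t.succ 0 + W (s1' n 0 v) t) = v.1 t.succ 0 * v.1 t.succ 0 - W (s1' n 0 v) t * W (s1' n 0 v) t := fun t => by ring
    simp only [this, Finset.sum_sub_distrib, h3, Finset.univ_eq_empty, Finset.sum_empty, add_zero]
    rw [hb]
    field_simp
    ring
  · simp
    ring

theorem rep_minus3 (h2 : (2 : F) ≠ 0) (n : ℕ) (h : NegM F n) (a b c : F) (hc : c ≠ 0) (hδ : b - a ^ 2 / 4 = c * c) :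
    Nonempty (OGrp (QV (k := n + 1) (l := 2) (F := F) ![1, -1]) ≃* OGrp (qMinus (n + 1) F a b)) := by
  obtain ⟨W, hW⟩ := h
  have h4 : (4 : F) ≠ 0 := by
    have : (4 : F) = 2 * 2 := by norm_num
    rw [this]
    exact mul_ne_zero h2 h2
  have hb : b = c * c + a ^ 2 / 4 := by rw [← hδ]; ring
  refine rep _ h2 (fun j => by fin_cases j <;> simp) { toFun := fun v => Sum.elim (Sum.elim
      (Fin.cases (v.2 0 + v.2 1) (fun t => v.1 t.succ 0 - W (s1' n 2 v) t))
      (Fin.cases (v.2 0 - v.2 1) (fun t => v.1 t.succ 0 + W (s1' n 2 v) t))) ![v.1 0 0 - a / 2 * (v.1 0 1 / c), v.1 0 1 / c], map_add' := fun x y => ?_, map_smul' := fun c x => ?_ } (fun v => ?_) ?_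
  · funext t
    rcases t with (t | t) | t
    · refine Fin.cases ?_ (fun t => ?_) t <;> simp <;> ring
    · refine Fin.cases ?_ (fun t => ?_) t <;> simp <;> ring
    · fin_cases t
      · simp; ring
      · simp; ring
  · funext t
    rcases t with (t | t) | t
    · refine Fin.cases ?_ (fun t => ?_) t <;> simp <;> ring
    · refine Fin.cases ?_ (fun t => ?_) t <;> simp <;> ring
    · fin_cases t
      · simp; ring
      · simp; ring
  · rw [coe_qMinus, QV_apply]
    simp only [Cfsg.quadFormMinus, LinearMap.coe_mk, AddHom.coe_mk, Sum.elim_inl, Sum.elim_inr, q2_apply, Fin.sum_univ_succ (n := n),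
      Matrix.cons_val_zero, Matrix.cons_val_one, Fin.cases_zero, Fin.cases_succ, Fin.sum_univ_two]
    have h3 := hW (s1' n 2 v)
    have h4 : ∀ t, s1' (F := F) n 2 v t = v.1 t.succ 1 := fun t => rfl
    simp only [h4] at h3
    simp only [Finset.sum_add_distrib]
    have : ∀ t : Fin n, (v.1 t.succ 0 - W (s1' n 2 v) t) * (v.1 t.succ 0 + W (s1' n 2 v) t) = v.1 t.succ 0 * v.1 t.succ 0 - W (s1' n 2 v) t * W (s1' n 2 v) t := fun t => by ring
    simp only [this, Finset.sum_sub_distrib, h3]
    rw [hb]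
    field_simp
    ring
  · simp
    ring

end CfsgLib.SOm
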