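import Cfsg.Agent.LibSOm7

set_option autoImplicit false

/-! Numerics (lead). -/

namespace CfsgLib.SOm

open Cfsg.Agent.H22 Module Equiv

/-- the exponent -/
def vv (q : ℕ) : ℕ := padicValNat 2 (q + 1) + padicValNat 2 (q - 1)

variable {q : ℕ} (hq : Odd q) (h1 : 1 < q)
include hq h1

lemma val_sq (i : ℕ) : padicValNat 2 (q ^ (2 * (i + 1)) - 1) = vv q + padicValNat 2 (i + 1) := by
  have : Fact (Nat.Prime 2) := ⟨Nat.prime_two⟩
  have h := padicValNat.pow_two_sub_pow (x := q) (y := 1) h1 (by obtain ⟨r, hr⟩ := hq; exact ⟨r, by omega⟩)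
    (by obtain ⟨r, hr⟩ := hq; omega) (n := 2 * (i + 1)) (by omega) ⟨i + 1, by ring⟩
  rw [one_pow, padicValNat.mul (by norm_num) (by omega), padicValNat.self (by norm_num)] at h
  unfold vv
  omega

lemma val_prod (n : ℕ) : padicValNat 2 (∏ i ∈ Finset.range n, (q ^ (2 * (i + 1)) - 1)) = n * vv q + padicValNat 2 n.factorial := by
  have : Fact (Nat.Prime 2) := ⟨Nat.prime_two⟩
  have hpos : ∀ i, q ^ (2 * (i + 1)) - 1 ≠ 0 := fun i => by
    have : 1 < q ^ (2 * (i + 1)) := Nat.one_lt_pow (by omega) h1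
    omega
  induction n with
  | zero => simp
  | succ n ih =>
    rw [Finset.prod_range_succ, padicValNat.mul (Finset.prod_ne_zero_iff.2 fun i _ => hpos i) (hpos n), ih, val_sq hq h1,
      Nat.factorial_succ, padicValNat.mul (by omega) (Nat.factorial_ne_zero n)]
    ring

omit hq h1 in
lemma val_two (x : ℕ) (h : x % 4 = 2) : padicValNat 2 x = 1 := by
  have : Fact (Nat.Prime 2) := ⟨Nat.prime_two⟩
  obtain ⟨y, rfl⟩ : ∃ y, x = 2 * y := ⟨x / 2, by omega⟩
  rw [padicValNat.mul (by norm_num) (by omega), padicValNat.self (by norm_num), padicValNat.eq_zero_of_not_dvd (by omega)]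

lemma val_pm (m : ℕ) (hm : 0 < m) : padicValNat 2 (q ^ m - 1) + padicValNat 2 (q ^ m + 1) = vv q + padicValNat 2 m := by
  have : Fact (Nat.Prime 2) := ⟨Nat.prime_two⟩
  have h := val_sq hq h1 (m - 1)
  rw [show m - 1 + 1 = m by omega] at h
  rw [← h]
  have hle : 1 < q ^ m := Nat.one_lt_pow (by omega) h1
  rw [← padicValNat.mul (by omega) (by omega)]
  congr 1
  have : q ^ (2 * m) = q ^ m * q ^ m := by ring
  rw [this]
  clear this h
  generalize q ^ m = x at *
  obtain ⟨y, rfl⟩ : ∃ y, x = y + 1 := ⟨x - 1, by omega⟩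
  rw [Nat.add_sub_cancel]
  have : (y + 1) * (y + 1) = y * (y + 1 + 1) + 1 := by ring
  rw [this, Nat.add_sub_cancel]

omit h1 in
lemma val_pow_q (a : ℕ) : padicValNat 2 (q ^ a) = 0 := by
  have : Fact (Nat.Prime 2) := ⟨Nat.prime_two⟩
  apply padicValNat.eq_zero_of_not_dvd
  intro h
  have := hq.pow (n := a)
  exact (Nat.not_even_iff_odd.2 this) (even_iff_two_dvd.2 h)

omit h1 in
lemma pow_mod (m : ℕ) : q ^ m % 4 = 1 ∨ q ^ m % 4 = 3 := by
  have := hq.pow (n := m)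
  obtain ⟨r, hr⟩ := this
  omega

lemma val_plus1 (m : ℕ) (hm : 0 < m) (h : q ^ m % 4 = 1) (a : ℕ) :
    padicValNat 2 (2 * q ^ a * (q ^ m - 1) * ∏ i ∈ Finset.range (m - 1), (q ^ (2 * (i + 1)) - 1)) = m * vv q + padicValNat 2 m.factorial := by
  have : Fact (Nat.Prime 2) := ⟨Nat.prime_two⟩
  have hpos : ∀ i, q ^ (2 * (i + 1)) - 1 ≠ 0 := fun i => by
    have : 1 < q ^ (2 * (i + 1)) := Nat.one_lt_pow (by omega) h1
    omega
  have hle : 1 < q ^ m := Nat.one_lt_pow (by omega) h1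
  have hqa : q ^ a ≠ 0 := pow_ne_zero _ (by omega)
  have h3 := val_pm hq h1 m hm
  rw [val_two (q ^ m + 1) (by omega)] at h3
  rw [padicValNat.mul (mul_ne_zero (mul_ne_zero (by norm_num) hqa) (by omega)) (Finset.prod_ne_zero_iff.2 fun i _ => hpos i),
    padicValNat.mul (mul_ne_zero (by norm_num) hqa) (by omega), padicValNat.mul (by norm_num) hqa, val_pow_q hq, val_prod hq h1,
    padicValNat.self (by norm_num)]
  obtain ⟨n, rfl⟩ : ∃ n, m = n + 1 := ⟨m - 1, by omega⟩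
  rw [Nat.add_sub_cancel, Nat.factorial_succ, padicValNat.mul (by omega) (Nat.factorial_ne_zero n), add_mul]
  omega

lemma val_plus2 (m : ℕ) (hm : 0 < m) (h : q ^ m % 4 = 3) (a : ℕ) :
    padicValNat 2 (2 * q ^ a * (q ^ m - 1) * ∏ i ∈ Finset.range (m - 1), (q ^ (2 * (i + 1)) - 1)) = (m - 1) * vv q + 2 + padicValNat 2 (m - 1).factorial := by
  have : Fact (Nat.Prime 2) := ⟨Nat.prime_two⟩
  have hpos : ∀ i, q ^ (2 * (i + 1)) - 1 ≠ 0 := fun i => by
    have : 1 < q ^ (2 * (i + 1)) := Nat.one_lt_pow (by omega) h1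
    omega
  have hle : 1 < q ^ m := Nat.one_lt_pow (by omega) h1
  have hqa : q ^ a ≠ 0 := pow_ne_zero _ (by omega)
  rw [padicValNat.mul (mul_ne_zero (mul_ne_zero (by norm_num) hqa) (by omega)) (Finset.prod_ne_zero_iff.2 fun i _ => hpos i),
    padicValNat.mul (mul_ne_zero (by norm_num) hqa) (by omega), padicValNat.mul (by norm_num) hqa, val_pow_q hq, val_prod hq h1,
    padicValNat.self (by norm_num), val_two (q ^ m - 1) (by omega)]
  ring

lemma val_minus1 (m : ℕ) (hm : 0 < m) (h : q ^ m % 4 = 1) (a : ℕ) :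
    padicValNat 2 (2 * q ^ a * (q ^ m + 1) * ∏ i ∈ Finset.range (m - 1), (q ^ (2 * (i + 1)) - 1)) = (m - 1) * vv q + 2 + padicValNat 2 (m - 1).factorial := by
  have : Fact (Nat.Prime 2) := ⟨Nat.prime_two⟩
  have hpos : ∀ i, q ^ (2 * (i + 1)) - 1 ≠ 0 := fun i => by
    have : 1 < q ^ (2 * (i + 1)) := Nat.one_lt_pow (by omega) h1
    omega
  have hqa : q ^ a ≠ 0 := pow_ne_zero _ (by omega)
  rw [padicValNat.mul (mul_ne_zero (mul_ne_zero (by norm_num) hqa) (by omega)) (Finset.prod_ne_zero_iff.2 fun i _ => hpos i),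
    padicValNat.mul (mul_ne_zero (by norm_num) hqa) (by omega), padicValNat.mul (by norm_num) hqa, val_pow_q hq, val_prod hq h1,
    padicValNat.self (by norm_num), val_two (q ^ m + 1) (by omega)]
  ring

lemma val_minus2 (m : ℕ) (hm : 0 < m) (h : q ^ m % 4 = 3) (a : ℕ) :
    padicValNat 2 (2 * q ^ a * (q ^ m + 1) * ∏ i ∈ Finset.range (m - 1), (q ^ (2 * (i + 1)) - 1)) = m * vv q + padicValNat 2 m.factorial := by
  have : Fact (Nat.Prime 2) := ⟨Nat.prime_two⟩
  have hpos : ∀ i, q ^ (2 * (i + 1)) - 1 ≠ 0 := fun i => by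
    have : 1 < q ^ (2 * (i + 1)) := Nat.one_lt_pow (by omega) h1
    omega
  have hle : 1 < q ^ m := Nat.one_lt_pow (by omega) h1
  have hqa : q ^ a ≠ 0 := pow_ne_zero _ (by omega)
  have h3 := val_pm hq h1 m hm
  rw [val_two (q ^ m - 1) (by omega)] at h3
  rw [padicValNat.mul (mul_ne_zero (mul_ne_zero (by norm_num) hqa) (by omega)) (Finset.prod_ne_zero_iff.2 fun i _ => hpos i),
    padicValNat.mul (mul_ne_zero (by norm_num) hqa) (by omega), padicValNat.mul (by norm_num) hqa, val_pow_q hq, val_prod hq h1,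
    padicValNat.self (by norm_num)]
  obtain ⟨n, rfl⟩ : ∃ n, m = n + 1 := ⟨m - 1, by omega⟩
  rw [Nat.add_sub_cancel, Nat.factorial_succ, padicValNat.mul (by omega) (Nat.factorial_ne_zero n), add_mul]
  omega

lemma val_odd (m : ℕ) (a : ℕ) :
    padicValNat 2 (2 * q ^ a * ∏ i ∈ Finset.range m, (q ^ (2 * (i + 1)) - 1)) = m * vv q + 1 + padicValNat 2 m.factorial := by
  have : Fact (Nat.Prime 2) := ⟨Nat.prime_two⟩
  have hpos : ∀ i, q ^ (2 * (i + 1)) - 1 ≠ 0 := fun i => by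
    have : 1 < q ^ (2 * (i + 1)) := Nat.one_lt_pow (by omega) h1
    omega
  have hqa : q ^ a ≠ 0 := pow_ne_zero _ (by omega)
  rw [padicValNat.mul (mul_ne_zero (by norm_num) hqa) (Finset.prod_ne_zero_iff.2 fun i _ => hpos i),
    padicValNat.mul (by norm_num) hqa, val_pow_q hq, val_prod hq h1, padicValNat.self (by norm_num)]
  ring

end CfsgLib.SOm
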