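import Cfsg.Agent.LibSOm8

set_option autoImplicit false

/-! The theorems (lead). -/

namespace CfsgLib.SOm

open Cfsg.Agent.H22 Module Equiv

lemma SE'.comm_congr {G H : Type*} [Group G] [Group H] (e : G ≃* H) (h : SE' (commutator G)) : SE' (commutator H) :=
  h.congr ((e.subgroupMap (commutator G)).trans (MulEquiv.subgroupCongr (by
    rw [commutator_def, commutator_def, Subgroup.map_commutator]
    congr 1 <;> exact Subgroup.map_top_of_surjective _ e.surjective)))

variable {F : Type*} [Field F] [Fintype F]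

omit [Fintype F] in
lemma q2_equiv (h2 : (2 : F) ≠ 0) : Nonempty (R2 F ≃* OGrp (QV (k := 1) (l := 0) (F := F) ![])) := by
  refine exists_oEquiv { toFun := fun u => (fun _ => u, 0), map_add' := fun x y => by simp; rfl, map_smul' := fun c x => by simp; rfl }
    (fun v => ?_) (fun v h => ?_) ?_
  · rw [QV_apply]
    simp
  · have h3 := h (f0 F)
    have h4 := h (f1 F)
    rw [polar_q2] at h3 h4
    funext a
    fin_cases a
    · simpa [f0, h2] using h3
    · simpa [f1, h2] using h4
  · rw [finrank_VV]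
    simp

lemma two_ne (hF : Odd (Fintype.card F)) : (2 : F) ≠ 0 := by
  intro h
  have h1 : CharP F 2 := by
    have : Fact (Nat.Prime 2) := ⟨Nat.prime_two⟩
    exact CharTwo.of_one_ne_zero_of_two_eq_zero one_ne_zero h
  have h3 := FiniteField.even_card_of_char_two (F := F) (by
    rw [ringChar.eq F 2])
  obtain ⟨r, hr⟩ := hF
  omega

lemma val_R2 (hF : Odd (Fintype.card F)) : padicValNat 2 (Nat.card (R2 F)) = vv (Fintype.card F) := by
  have h2 := two_ne hF
  have h1 : 1 < Fintype.card F := Fintype.one_lt_card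
  obtain ⟨e⟩ := q2_equiv h2
  rw [Nat.card_congr e.toEquiv]
  rcases pow_mod hF 1 with h | h
  · have hs : IsSquare (-1 : F) := by
      rw [FiniteField.isSquare_neg_one_iff]
      rw [pow_one] at h
      omega
    obtain ⟨e'⟩ := rep_plus1 h2 1 (negM_sq hs 1)
    rw [Nat.card_congr e'.toEquiv, card_O_plus 0]
    have := val_plus1 hF h1 1 (by norm_num) h ((0 + 1) * 0)
    simpa using this
  · obtain ⟨e'⟩ := rep_minus2 (F := F) h2 0 (negM_even h2 0 ⟨0, rfl⟩) 0 1 1 one_ne_zero (by ring)
    rw [Nat.card_congr e'.toEquiv, card_O_minus 0 0 1 ?_]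
    · have := val_minus2 hF h1 1 (by norm_num) h ((0 + 1) * 0)
      simpa using this
    · intro x y hxy
      have hs : ¬ IsSquare (-1 : F) := by
        rw [FiniteField.isSquare_neg_one_iff]
        rw [pow_one] at h
        omega
      by_cases hy : y = 0
      · subst hy
        simpa using hxy
      · exfalso
        apply hs
        refine ⟨x / y, ?_⟩
        field_simp
        linear_combination -hxy

lemma exists_succ_of_odd {m : ℕ} (h : Odd m) : ∃ n, m = n + 1 ∧ Even n := by
  obtain ⟨r, hr⟩ := h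
  exact ⟨2 * r, hr, ⟨r, by ring⟩⟩

theorem se_odd (hF : Odd (Fintype.card F)) (m : ℕ) (hm : 2 ≤ m) : SE' (commutator (OGrp (qOdd m F))) := by
  have h2 := two_ne hF
  have h1 : 1 < Fintype.card F := Fintype.one_lt_card
  have key : ∀ c : F, c ≠ 0 → Nonempty (OGrp (QV (k := m) (l := 1) (F := F) ![c]) ≃* OGrp (qOdd m F)) → SE' (commutator (OGrp (qOdd m F))) := by
    rintro c hc ⟨e⟩
    refine SE'.comm_congr e (se_QV _ h2 hm (fun j => by fin_cases j; exact hc) ?_)
    rw [Nat.card_congr e.toEquiv, card_O_odd m h2, val_odd hF h1, val_R2 hF]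
  by_cases hs : NegM F m
  · exact key 1 one_ne_zero (rep_odd1 h2 m hs)
  · have hodd : Odd m := by
      by_contra h
      exact hs (negM_even h2 m (Nat.not_odd_iff_even.1 h))
    obtain ⟨n, rfl, hn⟩ := exists_succ_of_odd hodd
    exact key (-1) (neg_ne_zero.2 one_ne_zero) (rep_odd2 h2 n (negM_even h2 n hn))

theorem se_plus (hF : Odd (Fintype.card F)) (m : ℕ) (hm : 1 ≤ m) (hm' : Even m ∨ 4 ≤ m) : SE' (commutator (OGrp (qPlus m F))) := by
  have h2 := two_ne hF
  have h1 : 1 < Fintype.card F := Fintype.one_lt_card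
  have hm2 : 2 ≤ m := by
    rcases hm' with h | h
    · obtain ⟨r, hr⟩ := h
      omega
    · omega
  obtain ⟨n, rfl⟩ : ∃ n, m = n + 1 := ⟨m - 1, by omega⟩
  by_cases hs : IsSquare (-1 : F) ∨ Even (n + 1)
  · have hN : NegM F (n + 1) := by
      rcases hs with h | h
      · exact negM_sq h _
      · exact negM_even h2 _ h
    have hmod : Fintype.card F ^ (n + 1) % 4 = 1 := by
      rcases hs with h | h
      · rw [FiniteField.isSquare_neg_one_iff] at h
        have h3 : Fintype.card F % 4 = 1 := by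
          obtain ⟨r, hr⟩ := hF
          omega
        rw [Nat.pow_mod, h3, one_pow]
        norm_num
      · obtain ⟨r, hr⟩ := h
        rw [hr, ← two_mul, pow_mul, Nat.pow_mod]
        have : Fintype.card F ^ 2 % 4 = 1 := by
          rw [Nat.pow_mod]
          have : Fintype.card F % 4 = 1 ∨ Fintype.card F % 4 = 3 := by
            obtain ⟨r, hr⟩ := hF
            omega
          rcases this with h | h <;> rw [h]
        rw [this, one_pow]
        norm_num
    obtain ⟨e⟩ := rep_plus1 h2 (n + 1) hN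
    refine SE'.comm_congr e (se_QV _ h2 hm2 (fun j => j.elim0) ?_)
    have := val_plus1 hF h1 (n + 1) (by omega) hmod ((n + 1) * n)
    rw [Nat.add_sub_cancel] at this
    rw [Nat.card_congr e.toEquiv, card_O_plus, this, val_R2 hF, add_zero]
  · push Not at hs
    have hn : Even n := by
      have := Nat.not_even_iff_odd.1 hs.2
      obtain ⟨r, hr⟩ := this
      exact ⟨r, by omega⟩
    have hmod : Fintype.card F ^ (n + 1) % 4 = 3 := by
      have h3 := hs.1
      rw [FiniteField.isSquare_neg_one_iff] at h3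
      push Not at h3
      obtain ⟨r, hr⟩ := hn
      rw [pow_succ, hr, ← two_mul, pow_mul, Nat.mul_mod, Nat.pow_mod]
      have : Fintype.card F ^ 2 % 4 = 1 := by
        rw [Nat.pow_mod, h3]
      rw [this, one_pow, h3]
      norm_num
    obtain ⟨e⟩ := rep_plus2 h2 n (negM_even h2 n hn)
    have hn2 : 2 ≤ n := by
      rcases hm' with h | h
      · exact absurd h hs.2
      · omega
    refine SE'.comm_congr e (se_QV _ h2 hn2 (fun j => by fin_cases j <;> simp) ?_)
    have := val_plus2 hF h1 (n + 1) (by omega) hmod ((n + 1) * n)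
    rw [Nat.add_sub_cancel] at this
    rw [Nat.card_congr e.toEquiv, card_O_plus, this, val_R2 hF]

theorem se_minus (hF : Odd (Fintype.card F)) (n : ℕ) (hn : 2 ≤ n) (a b : F)
    (hab : ∀ z₁ z₂ : F, z₁ ^ 2 + a * z₁ * z₂ + b * z₂ ^ 2 = 0 → z₁ = 0 ∧ z₂ = 0) : SE' (commutator (OGrp (qMinus n F a b))) := by
  have h2 := two_ne hF
  have h1 : 1 < Fintype.card F := Fintype.one_lt_card
  have h4 : (4 : F) ≠ 0 := by
    have : (4 : F) = 2 * 2 := by norm_num
    rw [this]
    exact mul_ne_zero h2 h2
  -- -δ is not a square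
  have hδ : ¬ IsSquare (-(b - a ^ 2 / 4)) := by
    rintro ⟨c, hc⟩
    have := hab (c - a / 2) 1 (by
      have : b = a ^ 2 / 4 - c * c := by rw [← hc]; ring
      rw [this]
      field_simp
      ring)
    exact one_ne_zero this.2
  have hδ0 : b - a ^ 2 / 4 ≠ 0 := by
    intro h
    apply hδ
    rw [h]
    exact ⟨0, by ring⟩
  have fin2 : ∀ (δ : F), δ ≠ 0 → Fintype.card F ^ (n + 1) % 4 = 1 → Nonempty (OGrp (QV (k := n) (l := 2) (F := F) ![1, δ]) ≃* OGrp (qMinus n F a b)) →
      SE' (commutator (OGrp (qMinus n F a b))) := by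
    rintro δ hδ hmod ⟨e⟩
    refine SE'.comm_congr e (se_QV _ h2 hn (fun j => by fin_cases j <;> simp [hδ]) ?_)
    have := val_minus1 hF h1 (n + 1) (by omega) hmod ((n + 1) * n)
    rw [Nat.add_sub_cancel] at this
    rw [Nat.card_congr e.toEquiv, card_O_minus n a b hab, this, val_R2 hF]
  by_cases hs : IsSquare (-1 : F)
  · have hmod : Fintype.card F ^ (n + 1) % 4 = 1 := by
      rw [FiniteField.isSquare_neg_one_iff] at hs
      have h3 : Fintype.card F % 4 = 1 := by
        obtain ⟨r, hr⟩ := hF
        omega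
      rw [Nat.pow_mod, h3, one_pow]
      norm_num
    exact fin2 _ hδ0 hmod (rep_minus1 h2 n (negM_sq hs n) a b hδ0)
  · have hq3 : Fintype.card F % 4 = 3 := by
      rw [FiniteField.isSquare_neg_one_iff] at hs
      push Not at hs
      exact hs
    have hq2 : Fintype.card F ^ 2 % 4 = 1 := by
      rw [Nat.pow_mod, hq3]
    -- δ is a square
    have hsq : IsSquare (b - a ^ 2 / 4) := by
      by_contra hc
      apply hδ
      classical
      have e1 : quadraticChar F (b - a ^ 2 / 4) = -1 := quadraticChar_neg_one_iff_not_isSquare.2 hc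
      have e2 : quadraticChar F (-1) = -1 := quadraticChar_neg_one_iff_not_isSquare.2 hs
      rw [← quadraticChar_one_iff_isSquare (neg_ne_zero.2 hδ0), ← neg_one_mul, map_mul, e1, e2]
      norm_num
    obtain ⟨c, hc⟩ := hsq
    have hc0 : c ≠ 0 := by
      rintro rfl
      apply hδ0
      rw [hc, mul_zero]
    rcases Nat.even_or_odd n with he | ho
    · obtain ⟨e⟩ := rep_minus2 h2 n (negM_even h2 n he) a b c hc0 hc
      have hmod : Fintype.card F ^ (n + 1) % 4 = 3 := by
        obtain ⟨r, hr⟩ := he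
        rw [pow_succ, hr, ← two_mul, pow_mul, Nat.mul_mod, Nat.pow_mod, hq2, one_pow, hq3]
        norm_num
      refine SE'.comm_congr e (se_QV _ h2 (by omega) (fun j => j.elim0) ?_)
      have := val_minus2 hF h1 (n + 1) (by omega) hmod ((n + 1) * n)
      rw [Nat.add_sub_cancel] at this
      rw [Nat.card_congr e.toEquiv, card_O_minus n a b hab, this, val_R2 hF, add_zero]
    · obtain ⟨n', rfl, hn'⟩ := exists_succ_of_odd ho
      have hmod : Fintype.card F ^ (n' + 1 + 1) % 4 = 1 := by
        obtain ⟨r, hr⟩ := hn'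
        rw [show n' + 1 + 1 = 2 * (r + 1) by omega, pow_mul, Nat.pow_mod, hq2, one_pow]
        norm_num
      exact fin2 _ (neg_ne_zero.2 one_ne_zero) hmod (rep_minus3 h2 n' (negM_even h2 n' hn') a b c hc0 hc)

end CfsgLib.SOm
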