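import Cfsg.Agent.LibH22HermS
import Cfsg.Agent.LibH22HermP

set_option autoImplicit false

/-! Involutions of `SU_3(q)`, `q` odd (seat helper26). -/

namespace CfsgLib.Si

open Matrix Module Cfsg.Agent.H22

variable {F : Type*} [Field F] [Fintype F] {q : ℕ} {σ : F →+* F}

/-- standing hypotheses -/
structure HS (F : Type*) [Field F] [Fintype F] (q : ℕ) (σ : F →+* F) : Prop where
  hF : Fintype.card F = q ^ 2
  hσ : ∀ x, σ x = x ^ q
  hσ2 : ∀ x, σ (σ x) = x
  hσi : σ ≠ RingHom.id F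
  h2 : (2 : F) ≠ 0

/-- the matrix of an element -/
abbrev mt (A : Cfsg.SU 3 F q) : Matrix (Fin 3) (Fin 3) F := ((A.1 : Matrix.SpecialLinearGroup (Fin 3) F) : Matrix (Fin 3) (Fin 3) F)

theorem mt_mul (A B : Cfsg.SU 3 F q) : mt (A * B) = mt A * mt B := rfl

theorem mt_one : mt (1 : Cfsg.SU 3 F q) = 1 := rfl

theorem mt_ext {A B : Cfsg.SU 3 F q} (h : mt A = mt B) : A = B := Subtype.ext (Subtype.ext h)

theorem mt_ext' {A B : Cfsg.SU 3 F q} (h : ∀ v, mt A *ᵥ v = mt B *ᵥ v) : A = B := by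
  apply mt_ext
  ext i j
  have := congrFun (h (Pi.single j 1)) i
  rw [mulVec_single_one, mulVec_single_one] at this
  exact this

theorem mt_pres (H : HS F q σ) (A : Cfsg.SU 3 F q) (x y : Fin 3 → F) : BH σ 3 (mt A *ᵥ x) (mt A *ᵥ y) = BH σ 3 x y := by
  rw [BH_hermForm H.hσ, BH_hermForm H.hσ]
  exact A.2 y x

theorem BH_dot (w v : Fin 3 → F) : (σ ∘ w) ⬝ᵥ v = BH σ 3 w v := rfl

/-- involution matrices -/
def TM (σ : F →+* F) (w : Fin 3 → F) : Matrix (Fin 3) (Fin 3) F := -1 + (2 : F) • vecMulVec w (σ ∘ w)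

theorem TM_mulVec (w v : Fin 3 → F) : TM σ w *ᵥ v = -v + (2 * BH σ 3 w v) • w := by
  unfold TM
  rw [add_mulVec, neg_mulVec, one_mulVec, smul_mulVec, vecMulVec_mulVec, BH_dot]
  congr 1
  ext i
  simp
  ring

theorem det_rk (a : F) (u ψ : Fin 3 → F) : ((1 : Matrix (Fin 3) (Fin 3) F) + vecMulVec (a • u) ψ).det = 1 + a * (ψ ⬝ᵥ u) := by
  rw [vecMulVec_eq Unit, det_one_add_replicateCol_mul_replicateRow, dotProduct_smul, smul_eq_mul]

theorem TM_det {w : Fin 3 → F} (hw : BH σ 3 w w = 1) : (TM σ w).det = 1 := by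
  have e : TM σ w = -(1 + vecMulVec ((-2 : F) • w) (σ ∘ w)) := by
    unfold TM
    rw [smul_vecMulVec, neg_smul, neg_add, neg_neg]
  rw [e, det_neg, det_rk, BH_dot, hw]
  simp
  norm_num

theorem BH_lin (H : HS F q σ) (a b c e : F) (x y z t : Fin 3 → F) :
    BH σ 3 (a • x + b • y) (c • z + e • t) = σ a * c * BH σ 3 x z + σ a * e * BH σ 3 x t + σ b * c * BH σ 3 y z + σ b * e * BH σ 3 y t := by
  simp only [map_add, LinearMap.add_apply, LinearMap.map_smulₛₗ, LinearMap.smul_apply, smul_eq_mul, RingHom.id_apply]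
  ring

theorem two_fix (H : HS F q σ) : σ 2 = 2 := by
  have : (2 : F) = 1 + 1 := by norm_num
  rw [this, map_add, map_one]

theorem TM_pres (H : HS F q σ) {w : Fin 3 → F} (hw : BH σ 3 w w = 1) (x y : Fin 3 → F) : BH σ 3 (TM σ w *ᵥ x) (TM σ w *ᵥ y) = BH σ 3 x y := by
  rw [TM_mulVec, TM_mulVec]
  have e1 : -x + (2 * BH σ 3 w x) • w = (-1 : F) • x + (2 * BH σ 3 w x) • w := by rw [neg_one_smul]
  have e2 : -y + (2 * BH σ 3 w y) • w = (-1 : F) • y + (2 * BH σ 3 w y) • w := by rw [neg_one_smul]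
  rw [e1, e2, BH_lin H, hw, map_mul, two_fix H, BH_symm H.hσ2, map_neg, map_one]
  ring

/-- the involution attached to a unit vector -/
def TT (H : HS F q σ) (w : Fin 3 → F) (hw : BH σ 3 w w = 1) : Cfsg.SU 3 F q :=
  ⟨⟨TM σ w, TM_det hw⟩, by
    intro u v
    have := TM_pres H hw v u
    rw [BH_hermForm H.hσ, BH_hermForm H.hσ] at this
    exact this⟩

theorem TT_act (H : HS F q σ) {w : Fin 3 → F} (hw : BH σ 3 w w = 1) (v : Fin 3 → F) :
    mt (TT H w hw) *ᵥ v = -v + (2 * BH σ 3 w v) • w := TM_mulVec w v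

theorem TT_self (H : HS F q σ) {w : Fin 3 → F} (hw : BH σ 3 w w = 1) : mt (TT H w hw) *ᵥ w = w := by
  rw [TT_act, hw]
  ext i
  simp
  ring

theorem TT_perp (H : HS F q σ) {w : Fin 3 → F} (hw : BH σ 3 w w = 1) {v : Fin 3 → F} (h : BH σ 3 w v = 0) :
    mt (TT H w hw) *ᵥ v = -v := by
  rw [TT_act, h]
  simp

theorem TT_sq (H : HS F q σ) {w : Fin 3 → F} (hw : BH σ 3 w w = 1) : TT H w hw * TT H w hw = 1 := by
  apply mt_ext'
  intro v
  rw [mt_mul, ← mulVec_mulVec, TT_act H hw v, mulVec_add, mulVec_neg, mulVec_smul, TT_self, TT_act, mt_one, one_mulVec]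
  simp

theorem TT_ne (H : HS F q σ) {w : Fin 3 → F} (hw : BH σ 3 w w = 1) : TT H w hw ≠ 1 := by
  intro h
  have h1 : ∀ v, (2 : F) • v = (2 * BH σ 3 w v) • w := by
    intro v
    have := TT_act H hw v
    rw [h, mt_one, one_mulVec] at this
    rw [two_smul]
    nth_rewrite 1 [this]
    abel
  have h3 : ∀ v, v = BH σ 3 w v • w := by
    intro v
    have := h1 v
    rw [mul_smul] at this
    exact smul_right_injective _ H.h2 this
  -- dimension: `e0, e1` both multiples of `w`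
  have h4 := h3 (Pi.single 0 1)
  have h5 := h3 (Pi.single 1 1)
  have a0 := congrFun h4 0
  have a1 := congrFun h4 1
  have b0 := congrFun h5 0
  have b1 := congrFun h5 1
  simp at a0 a1 b0 b1
  rcases a1 with a1 | a1
  · rw [a1, zero_mul] at a0; exact one_ne_zero a0
  · rw [a1, mul_zero] at b1; exact one_ne_zero b1

end CfsgLib.Si
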