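import Cfsg.Agent.LibSi1

set_option autoImplicit false

/-! Involutions of `SU_3(q)`, `q` odd, II (seat helper26). -/

namespace CfsgLib.Si

open Matrix Module Cfsg.Agent.H22

variable {F : Type*} [Field F] [Fintype F] {q : ℕ} {σ : F →+* F}

theorem BH_smul (H : HS F q σ) (a b : F) (x y : Fin 3 → F) : BH σ 3 (a • x) (b • y) = σ a * b * BH σ 3 x y := by
  simp only [LinearMap.map_smulₛₗ, LinearMap.smul_apply, smul_eq_mul, RingHom.id_apply]
  ring

theorem exists_unit (H : HS F q σ) {u : Fin 3 → F} (hu : BH σ 3 u u ≠ 0) :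
    ∃ l : F, l ≠ 0 ∧ σ l * l * BH σ 3 u u = 1 := by
  have hfix : σ (BH σ 3 u u) = BH σ 3 u u := BH_symm H.hσ2 u u
  obtain ⟨l, hl⟩ := exists_norm_eq H.hF (BH σ 3 u u)⁻¹ (inv_ne_zero hu) (by rw [inv_pow, ← H.hσ, hfix])
  refine ⟨l, ?_, ?_⟩
  · rintro rfl
    rw [zero_pow (by omega)] at hl
    exact inv_ne_zero hu hl.symm
  · rw [H.hσ, ← pow_succ, hl, inv_mul_cancel₀ hu]

theorem BH_zero_symm (H : HS F q σ) {x y : Fin 3 → F} (h : BH σ 3 x y = 0) : BH σ 3 y x = 0 := by
  rw [← BH_symm H.hσ2, h, map_zero]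

theorem line_of (H : HS F q σ) {W W' : Submodule F (Fin 3 → F)} (hc : IsCompl W W') (ho : ∀ x ∈ W, ∀ y ∈ W', BH σ 3 x y = 0)
    (h1 : finrank F W = 1) : ∃ u ∈ W, BH σ 3 u u ≠ 0 ∧ ∀ x ∈ W, ∃ c : F, x = c • u := by
  obtain ⟨⟨u, huW⟩, hu0, hu⟩ := finrank_eq_one_iff'.1 h1
  have hu' : ∀ x ∈ W, ∃ c : F, x = c • u := by
    intro x hx
    obtain ⟨c, hc⟩ := hu ⟨x, hx⟩
    exact ⟨c, (congrArg Subtype.val hc).symm⟩
  refine ⟨u, huW, ?_, hu'⟩
  intro h0
  apply hu0
  have : u = 0 := by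
    apply BH_nondeg (σ := σ) (n := 3) u
    intro y
    obtain ⟨a, ha, b, hb, rfl⟩ := Submodule.mem_sup.1 (show y ∈ W ⊔ W' by rw [hc.sup_eq_top]; exact Submodule.mem_top)
    obtain ⟨c, rfl⟩ := hu' a ha
    rw [map_add, map_smul, h0, smul_zero, zero_add]
    exact ho u huW b hb
  exact Subtype.ext this

theorem inv_form (H : HS F q σ) {t : Cfsg.SU 3 F q} (ht : t ≠ 1) (ht2 : t * t = 1) : ∃ (w : Fin 3 → F) (hw : BH σ 3 w w = 1), t = TT H w hw := by
  have hAA : ∀ x, mt t *ᵥ (mt t *ᵥ x) = x := by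
    intro x
    rw [mulVec_mulVec, ← mt_mul, ht2, mt_one, one_mulVec]
  set Wp : Submodule F (Fin 3 → F) := LinearMap.ker ((mt t).mulVecLin - LinearMap.id) with hWp
  set Wm : Submodule F (Fin 3 → F) := LinearMap.ker ((mt t).mulVecLin + LinearMap.id) with hWm
  have hp : ∀ x, x ∈ Wp ↔ mt t *ᵥ x = x := by
    intro x
    rw [hWp, LinearMap.mem_ker, LinearMap.sub_apply, mulVecLin_apply, LinearMap.id_apply, sub_eq_zero]
  have hm : ∀ x, x ∈ Wm ↔ mt t *ᵥ x = -x := by
    intro x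
    rw [hWm, LinearMap.mem_ker, LinearMap.add_apply, mulVecLin_apply, LinearMap.id_apply, add_eq_zero_iff_eq_neg]
  have h2 := H.h2
  have hdec : ∀ x : Fin 3 → F, x = (2⁻¹ : F) • (x + mt t *ᵥ x) + (2⁻¹ : F) • (x - mt t *ᵥ x) := by
    intro x
    rw [← smul_add, add_add_sub_cancel, ← two_smul F x, smul_smul, inv_mul_cancel₀ h2, one_smul]
  have hdp : ∀ x : Fin 3 → F, (2⁻¹ : F) • (x + mt t *ᵥ x) ∈ Wp := by
    intro x
    rw [hp, mulVec_smul, mulVec_add, hAA, add_comm]
  have hdm : ∀ x : Fin 3 → F, (2⁻¹ : F) • (x - mt t *ᵥ x) ∈ Wm := by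
    intro x
    rw [hm, mulVec_smul, mulVec_sub, hAA, ← smul_neg, neg_sub]
  have hc : IsCompl Wp Wm := by
    rw [isCompl_iff, disjoint_iff, codisjoint_iff]
    constructor
    · rw [Submodule.eq_bot_iff]
      rintro x ⟨hx1, hx2⟩
      have e1 := (hp x).1 hx1
      rw [(hm x).1 hx2] at e1
      have e2 : (2 : F) • x = 0 := by
        rw [two_smul]
        nth_rewrite 1 [← e1]
        rw [neg_add_cancel]
      exact (smul_eq_zero.1 e2).resolve_left h2
    · rw [eq_top_iff]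
      intro x _
      rw [hdec x]
      exact Submodule.add_mem_sup (hdp x) (hdm x)
  have hsum : finrank F Wp + finrank F Wm = 3 := by
    rw [Submodule.finrank_add_eq_of_isCompl hc]
    simp
  have ho : ∀ x ∈ Wp, ∀ y ∈ Wm, BH σ 3 x y = 0 := by
    intro x hx y hy
    have e := mt_pres H t x y
    rw [(hp x).1 hx, (hm y).1 hy, map_neg] at e
    have : (2 : F) * BH σ 3 x y = 0 := by linear_combination (-1 : F) * e
    exact (mul_eq_zero.1 this).resolve_left h2
  have ho' : ∀ x ∈ Wm, ∀ y ∈ Wp, BH σ 3 x y = 0 := fun x hx y hy => BH_zero_symm H (ho y hy x hx)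
  have hm0 : finrank F Wm ≠ 0 := by
    intro h0
    rw [Submodule.finrank_eq_zero] at h0
    apply ht
    apply mt_ext'
    intro v
    have := hdm v
    rw [h0, Submodule.mem_bot] at this
    have h5 := (smul_eq_zero.1 this).resolve_left (inv_ne_zero h2)
    rw [mt_one, one_mulVec]
    exact (sub_eq_zero.1 h5).symm
  have hp0 : finrank F Wp ≠ 0 := by
    intro h0
    rw [Submodule.finrank_eq_zero] at h0
    have h5 : mt t = -1 := by
      ext i j
      have := hdp (Pi.single j 1)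
      rw [h0, Submodule.mem_bot] at this
      have h6 := (smul_eq_zero.1 this).resolve_left (inv_ne_zero h2)
      rw [mulVec_single_one] at h6
      have h7 := congrFun h6 i
      rw [Pi.add_apply, Pi.zero_apply] at h7
      have h8 : (mt t) i j = -(Pi.single j (1 : F) : Fin 3 → F) i := by
        have h9 : (mt t).col j i = (mt t) i j := rfl
        rw [h9] at h7
        linear_combination h7
      rw [h8, Matrix.neg_apply, Matrix.one_apply, Pi.single_apply]
    have hd : (mt t).det = 1 := t.1.2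
    rw [h5, det_neg, det_one, Fintype.card_fin] at hd
    apply h2
    linear_combination -hd
  rcases (show finrank F Wp = 1 ∨ finrank F Wm = 1 by omega) with h1 | h1
  · obtain ⟨u, huW, huu, hu⟩ := line_of H hc ho h1
    obtain ⟨l, hl0, hl⟩ := exists_unit H huu
    have hw : BH σ 3 (l • u) (l • u) = 1 := by rw [BH_smul H]; exact hl
    refine ⟨l • u, hw, ?_⟩
    apply mt_ext'
    intro v
    rw [TT_act]
    obtain ⟨c, hcu⟩ := hu _ (hdp v)
    have h5 : BH σ 3 u v = c * BH σ 3 u u := by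
      conv_lhs => rw [hdec v]
      rw [map_add, ho u huW _ (hdm v), add_zero, hcu, map_smul, smul_eq_mul]
    have h6 : mt t *ᵥ v = -v + (2 : F) • (c • u) := by
      rw [← hcu, smul_smul, mul_inv_cancel₀ h2, one_smul]
      abel
    rw [h6]
    congr 1
    have h7 : BH σ 3 (l • u) v = σ l * BH σ 3 u v := by
      simp only [LinearMap.map_smulₛₗ, LinearMap.smul_apply, smul_eq_mul]
    rw [h7, h5, smul_smul, smul_smul]
    congr 1
    linear_combination (-2 * c) * hl
  · exfalso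
    obtain ⟨u, huW, huu, hu⟩ := line_of H hc.symm ho' h1
    have h5 : mt t = 1 + vecMulVec ((-2 / BH σ 3 u u) • u) (σ ∘ u) := by
      have h6 : ∀ v, mt t *ᵥ v = (1 + vecMulVec ((-2 / BH σ 3 u u) • u) (σ ∘ u)) *ᵥ v := by
        intro v
        rw [add_mulVec, one_mulVec, vecMulVec_mulVec, BH_dot]
        obtain ⟨c, hcu⟩ := hu _ (hdm v)
        have h7 : BH σ 3 u v = c * BH σ 3 u u := by
          conv_lhs => rw [hdec v]
          rw [map_add, ho' u huW _ (hdp v), zero_add, hcu, map_smul, smul_eq_mul]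
        have h8 : mt t *ᵥ v = v - (2 : F) • (c • u) := by
          rw [← hcu, smul_smul, mul_inv_cancel₀ h2, one_smul]
          abel
        rw [h8, sub_eq_add_neg]
        congr 1
        rw [h7]
        ext i
        simp
        field_simp
      ext i j
      have := congrFun (h6 (Pi.single j 1)) i
      rw [mulVec_single_one, mulVec_single_one] at this
      exact this
    have hd : (mt t).det = 1 := t.1.2
    rw [h5, det_rk, BH_dot] at hd
    apply h2
    have h9 : -2 / BH σ 3 u u * BH σ 3 u u = -2 := by field_simp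
    rw [h9] at hd
    linear_combination -hd

theorem T_eq (H : HS F q σ) {w z : Fin 3 → F} {hw : BH σ 3 w w = 1} {hz : BH σ 3 z z = 1} (h : TT H w hw = TT H z hz) :
    z = BH σ 3 w z • w := by
  have h1 := TT_self H hz
  rw [← h, TT_act] at h1
  have h3 : (2 : F) • z = (2 : F) • (BH σ 3 w z • w) := by
    rw [two_smul, smul_smul]
    nth_rewrite 1 [← h1]
    abel
  exact smul_right_injective _ H.h2 h3

theorem T_smul (H : HS F q σ) {w z : Fin 3 → F} {hw : BH σ 3 w w = 1} {hz : BH σ 3 z z = 1} {c : F} (h : z = c • w) :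
    TT H w hw = TT H z hz := by
  have hc : σ c * c = 1 := by
    rw [h, BH_smul H, hw, mul_one] at hz
    exact hz
  apply mt_ext'
  intro v
  rw [TT_act, TT_act, h]
  have h7 : BH σ 3 (c • w) v = σ c * BH σ 3 w v := by
    simp only [LinearMap.map_smulₛₗ, LinearMap.smul_apply, smul_eq_mul]
  rw [h7, smul_smul]
  congr 2
  linear_combination (-2 * BH σ 3 w v) * hc

theorem T_conj (H : HS F q σ) (g : Cfsg.SU 3 F q) {w : Fin 3 → F} (hw : BH σ 3 w w = 1) :
    g * TT H w hw * g⁻¹ = TT H (mt g *ᵥ w) (by rw [mt_pres H]; exact hw) := by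
  rw [mul_inv_eq_iff_eq_mul]
  apply mt_ext'
  intro v
  rw [mt_mul, mt_mul, ← mulVec_mulVec, ← mulVec_mulVec, TT_act, TT_act, mt_pres H, mulVec_add, mulVec_neg, mulVec_smul]

theorem T_comm_perp (H : HS F q σ) {w z : Fin 3 → F} (hw : BH σ 3 w w = 1) (hz : BH σ 3 z z = 1) (h : BH σ 3 w z = 0) :
    Commute (TT H w hw) (TT H z hz) := by
  have h1 := T_conj H (TT H z hz) hw
  have h3 : TT H w hw = TT H (mt (TT H z hz) *ᵥ w) (by rw [mt_pres H]; exact hw) := by
    apply T_smul H (c := -1)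
    rw [TT_perp H hz (BH_zero_symm H h), neg_one_smul]
  rw [← h3, mul_inv_eq_iff_eq_mul] at h1
  exact h1.symm

theorem T_comm (H : HS F q σ) {w z : Fin 3 → F} {hw : BH σ 3 w w = 1} {hz : BH σ 3 z z = 1} (h : Commute (TT H w hw) (TT H z hz)) :
    BH σ 3 w z = 0 ∨ TT H w hw = TT H z hz := by
  by_cases h0 : BH σ 3 z w = 0
  · left; exact BH_zero_symm H h0
  right
  have h1 := T_conj H (TT H z hz) hw
  have h3 : TT H w hw = TT H (mt (TT H z hz) *ᵥ w) (by rw [mt_pres H]; exact hw) := by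
    rw [← h1, ← h.eq, mul_inv_cancel_right]
  have h4 := T_eq H h3
  set c := BH σ 3 w (mt (TT H z hz) *ᵥ w) with hc
  rw [TT_act] at h4
  have h5 : (2 * BH σ 3 z w) • z = (c + 1) • w := by
    rw [add_smul, one_smul, ← h4]
    abel
  have h6 : (2 * BH σ 3 z w) ≠ 0 := mul_ne_zero H.h2 h0
  apply T_smul H (c := (2 * BH σ 3 z w)⁻¹ * (c + 1))
  rw [mul_smul, ← h5, smul_smul, inv_mul_cancel₀ h6, one_smul]

end CfsgLib.Si
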