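import Cfsg.Agent.LibSi2

set_option autoImplicit false

/-! Involutions of `SU_3(q)`, `q` odd, III: counting (seat helper26). -/

namespace CfsgLib.Si

open Matrix Module Cfsg.Agent.H22

variable {F : Type*} [Field F] [Fintype F] {q : ℕ} {σ : F →+* F}

theorem cnt1 (H : HS F q σ) {w : Fin 3 → F} (hw : BH σ 3 w w = 1) (c : F) :
    Nat.card {x : Fin 3 → F // BH σ 3 x x = c ∧ BH σ 3 w x = 0} = cntH F q 2 c := by
  have hw' : ∀ i j : Fin 1, BH σ 3 ((fun _ => w : Fin 1 → (Fin 3 → F)) i) ((fun _ => w : Fin 1 → (Fin 3 → F)) j) = if i = j then 1 else 0 := by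
    intro i j
    rw [if_pos (Subsingleton.elim i j)]
    exact hw
  have he : ∀ i j : Fin 1, BH σ 3 ((fun _ => Pi.single 0 1 : Fin 1 → (Fin 3 → F)) i) ((fun _ => Pi.single 0 1 : Fin 1 → (Fin 3 → F)) j) = if i = j then 1 else 0 := by
    intro i j
    rw [if_pos (Subsingleton.elim i j), BH_single, if_pos rfl]
  obtain ⟨g, hg, hgw⟩ := BH_witt (σ := σ) (n := 3) H.hσ2 H.hσi (fun _ => Pi.single 0 1 : Fin 1 → (Fin 3 → F)) (fun _ => w)
    (orthonormal_indep he) (orthonormal_indep hw') (fun i j => (he i j).trans (hw' i j).symm)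
  have h1 := perp_count (σ := σ) (k := 1) (m := 2) H.hσ (g := g) hg (fun _ => Pi.single 0 1 : Fin 1 → (Fin 3 → F)) (by
    intro i j
    show (Pi.single (0 : Fin 3) (1 : F) : Fin 3 → F) (Fin.natAdd 1 j) = 0
    apply Pi.single_eq_of_ne
    intro h
    have := congrArg Fin.val h
    simp at this) (by
    intro i
    apply Submodule.subset_span
    refine ⟨0, ?_⟩
    have : i = 0 := Subsingleton.elim _ _
    subst this
    rfl) c
  rw [← h1]
  apply Nat.card_congr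
  refine Equiv.subtypeEquivRight ?_
  intro x
  constructor
  · rintro ⟨hx1, hx2⟩
    refine ⟨hx1, fun i => ?_⟩
    have := hgw i
    rw [this]
    exact hx2
  · rintro ⟨hx1, hx2⟩
    refine ⟨hx1, ?_⟩
    have := hx2 0
    rw [hgw 0] at this
    exact this

theorem cnt2 (H : HS F q σ) {w e : Fin 3 → F} (hw : BH σ 3 w w = 1) (he : BH σ 3 e e = 1) (hwe : BH σ 3 w e = 0) (c : F) :
    Nat.card {x : Fin 3 → F // BH σ 3 x x = c ∧ BH σ 3 w x = 0 ∧ BH σ 3 e x = 0} = cntH F q 1 c := by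
  have hw' : ∀ i j : Fin 2, BH σ 3 ((![w, e] : Fin 2 → (Fin 3 → F)) i) ((![w, e] : Fin 2 → (Fin 3 → F)) j) = if i = j then 1 else 0 := by
    intro i j
    fin_cases i <;> fin_cases j
    · simpa using hw
    · simpa using hwe
    · simpa using BH_zero_symm H hwe
    · simpa using he
  have he' : ∀ i j : Fin 2, BH σ 3 ((![Pi.single 0 1, Pi.single 1 1] : Fin 2 → (Fin 3 → F)) i) ((![Pi.single 0 1, Pi.single 1 1] : Fin 2 → (Fin 3 → F)) j) = if i = j then 1 else 0 := by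
    intro i j
    fin_cases i <;> fin_cases j <;> simp [BH_single]
  obtain ⟨g, hg, hgw⟩ := BH_witt (σ := σ) (n := 3) H.hσ2 H.hσi (![Pi.single 0 1, Pi.single 1 1] : Fin 2 → (Fin 3 → F)) (![w, e])
    (orthonormal_indep he') (orthonormal_indep hw') (fun i j => (he' i j).trans (hw' i j).symm)
  have h1 := perp_count (σ := σ) (k := 2) (m := 1) H.hσ (g := g) hg (![Pi.single 0 1, Pi.single 1 1] : Fin 2 → (Fin 3 → F)) (by
    intro i j
    fin_cases i <;> fin_cases j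
    · show (Pi.single (0 : Fin 3) (1 : F) : Fin 3 → F) 2 = 0
      exact Pi.single_eq_of_ne (by decide) _
    · show (Pi.single (1 : Fin 3) (1 : F) : Fin 3 → F) 2 = 0
      exact Pi.single_eq_of_ne (by decide) _) (by
    intro i
    apply Submodule.subset_span
    fin_cases i
    · exact ⟨0, rfl⟩
    · exact ⟨1, rfl⟩) c
  rw [← h1]
  apply Nat.card_congr
  refine Equiv.subtypeEquivRight ?_
  intro x
  have g0 : g (Pi.single 0 1) = w := hgw 0
  have g1 : g (Pi.single 1 1) = e := hgw 1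
  constructor
  · rintro ⟨hx1, hx2, hx3⟩
    refine ⟨hx1, fun i => ?_⟩
    fin_cases i
    · show BH σ 3 (g (Pi.single 0 1)) x = 0
      rw [g0]; exact hx2
    · show BH σ 3 (g (Pi.single 1 1)) x = 0
      rw [g1]; exact hx3
  · rintro ⟨hx1, hx2⟩
    refine ⟨hx1, ?_, ?_⟩
    · rw [← g0]; exact hx2 0
    · rw [← g1]; exact hx2 1

theorem q_pos (H : HS F q σ) : 2 ≤ q := two_le_of_card_sq H.hF

theorem cntH1 (H : HS F q σ) {c : F} (hc0 : c ≠ 0) (hc : c ^ q = c) : cntH F q 1 c = q + 1 := by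
  have h := (cntH_eq H.hF 1).1 c hc0 hc
  simp [aH] at h
  exact_mod_cast h

theorem cntH10 (H : HS F q σ) : cntH F q 1 0 = 1 := by
  have h := (cntH_eq H.hF 1).2
  simp [aH] at h
  exact_mod_cast h

theorem cntH2 (H : HS F q σ) {c : F} (hc0 : c ≠ 0) (hc : c ^ q = c) : cntH F q 2 c = q * (q ^ 2 - 1) := by
  have h := (cntH_eq H.hF 2).1 c hc0 hc
  simp [aH] at h
  have hq := q_pos H
  have h2 : ((q * (q ^ 2 - 1) : ℕ) : ℤ) = (q : ℤ) * ((q : ℤ) ^ 2 - 1) := by
    rw [Nat.cast_mul, Nat.cast_sub (Nat.one_le_pow _ _ (by omega))]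
    simp
  have h3 : (cntH F q 2 c : ℤ) = ((q * (q ^ 2 - 1) : ℕ) : ℤ) := by
    rw [h, h2]; ring
  exact_mod_cast h3

theorem cntH20 (H : HS F q σ) : cntH F q 2 0 = (q ^ 2 - 1) * (q + 1) + 1 := by
  rw [cntH_zero H.hF]
  simp

/-- existence of a unit vector perpendicular to two orthonormal vectors -/
theorem exists_third (H : HS F q σ) {w e : Fin 3 → F} (hw : BH σ 3 w w = 1) (he : BH σ 3 e e = 1) (hwe : BH σ 3 w e = 0) :
    ∃ u, BH σ 3 u u = 1 ∧ BH σ 3 w u = 0 ∧ BH σ 3 e u = 0 := by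
  have h := cnt2 H hw he hwe 1
  rw [cntH1 H one_ne_zero (one_pow _)] at h
  have : Nonempty {x : Fin 3 → F // BH σ 3 x x = 1 ∧ BH σ 3 w x = 0 ∧ BH σ 3 e x = 0} := by
    by_contra hne
    rw [not_nonempty_iff] at hne
    rw [Nat.card_of_isEmpty] at h
    omega
  obtain ⟨⟨u, hu⟩⟩ := this
  exact ⟨u, hu⟩

theorem exists_second (H : HS F q σ) {w : Fin 3 → F} (hw : BH σ 3 w w = 1) : ∃ u, BH σ 3 u u = 1 ∧ BH σ 3 w u = 0 := by
  have h := cnt1 H hw 1
  rw [cntH2 H one_ne_zero (one_pow _)] at h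
  have : Nonempty {x : Fin 3 → F // BH σ 3 x x = 1 ∧ BH σ 3 w x = 0} := by
    by_contra hne
    rw [not_nonempty_iff] at hne
    rw [Nat.card_of_isEmpty] at h
    have hq := q_pos H
    have h3 : 1 < q ^ 2 := Nat.one_lt_pow (by norm_num) (by omega)
    have h4 : 0 < q * (q ^ 2 - 1) := Nat.mul_pos (by omega) (by omega)
    omega
  obtain ⟨⟨u, hu⟩⟩ := this
  exact ⟨u, hu⟩

/-- isotropic vectors perpendicular to two orthonormal vectors vanish -/
theorem iso_zero (H : HS F q σ) {w e x : Fin 3 → F} (hw : BH σ 3 w w = 1) (he : BH σ 3 e e = 1) (hwe : BH σ 3 w e = 0)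
    (hx : BH σ 3 x x = 0) (h1 : BH σ 3 w x = 0) (h2 : BH σ 3 e x = 0) : x = 0 := by
  have h := cnt2 H hw he hwe 0
  rw [cntH10 H, Nat.card_eq_one_iff_unique] at h
  haveI := h.1
  have := Subsingleton.elim (⟨x, hx, h1, h2⟩ : {x : Fin 3 → F // BH σ 3 x x = 0 ∧ BH σ 3 w x = 0 ∧ BH σ 3 e x = 0})
    ⟨0, by simp, by simp, by simp⟩
  exact congrArg Subtype.val this

/-- fibre counting -/
theorem card_fiber {A B : Type*} [Finite A] [Finite B] (f : A → B) (k : ℕ) (h : ∀ b, Nat.card {a // f a = b} = k) :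
    Nat.card A = k * Nat.card B := by
  haveI := Fintype.ofFinite B
  rw [Nat.card_congr (Equiv.sigmaFiberEquiv f).symm, Nat.card_sigma, Finset.sum_congr rfl (fun b _ => h b), Finset.sum_const,
    Finset.card_univ, ← Nat.card_eq_fintype_card, smul_eq_mul, mul_comm]

/-- counting involutions through unit vectors -/
theorem count_inv (H : HS F q σ) (P : (Fin 3 → F) → Prop) (Q : Cfsg.SU 3 F q → Prop)
    (h : ∀ w (hw : BH σ 3 w w = 1), Q (TT H w hw) ↔ P w) :
    (q + 1) * Nat.card {x : Cfsg.SU 3 F q // x ≠ 1 ∧ x * x = 1 ∧ Q x} = Nat.card {w : Fin 3 → F // BH σ 3 w w = 1 ∧ P w} := by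
  haveI : Finite (Cfsg.SU 3 F q) := inferInstance
  symm
  apply card_fiber (fun w : {w : Fin 3 → F // BH σ 3 w w = 1 ∧ P w} =>
    (⟨TT H w.1 w.2.1, TT_ne H _, TT_sq H _, (h _ _).2 w.2.2⟩ : {x : Cfsg.SU 3 F q // x ≠ 1 ∧ x * x = 1 ∧ Q x}))
  rintro ⟨x, hx1, hx2, hxQ⟩
  obtain ⟨w, hw, rfl⟩ := inv_form H hx1 hx2
  rw [← card_norm_fiber H.hF 1 one_ne_zero (one_pow _)]
  apply Nat.card_congr
  have hw0 : w ≠ 0 := by
    rintro rfl
    simp at hw
  refine ⟨fun z => ⟨BH σ 3 w z.1.1, ?_⟩, fun c => ⟨⟨c.1 • w, ?_, ?_⟩, ?_⟩, ?_, ?_⟩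
  · have e1 := congrArg Subtype.val z.2
    have e2 := T_eq H (hw := hw) (hz := z.1.2.1) e1.symm
    have e3 := z.1.2.1
    rw [e2, BH_smul H, hw, mul_one, H.hσ, ← pow_succ] at e3
    exact e3
  · rw [BH_smul H, hw, mul_one, H.hσ, ← pow_succ]
    exact c.2
  · have e1 : BH σ 3 (c.1 • w) (c.1 • w) = 1 := by
      rw [BH_smul H, hw, mul_one, H.hσ, ← pow_succ]
      exact c.2
    rw [← h _ e1, ← T_smul H (hw := hw) (c := c.1) rfl]
    exact hxQ
  · apply Subtype.ext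
    exact (T_smul H (hw := hw) (hz := by rw [BH_smul H, hw, mul_one, H.hσ, ← pow_succ]; exact c.2) (c := c.1) rfl).symm
  · rintro ⟨⟨z, hz1, hz2⟩, hz⟩
    apply Subtype.ext
    apply Subtype.ext
    have e1 := congrArg Subtype.val hz
    exact (T_eq H (hw := hw) (hz := hz1) e1.symm).symm
  · rintro ⟨c, hc⟩
    apply Subtype.ext
    show BH σ 3 w (c • w) = c
    rw [map_smul, hw, smul_eq_mul, mul_one]

end CfsgLib.Si
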