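import Cfsg.Agent.LibSi3

set_option autoImplicit false

/-! Involutions of `SU_3(q)`, `q` odd, IV: conjugacy and centralizers (seat helper26). -/

namespace CfsgLib.Si

open Matrix Module Cfsg.Agent.H22

variable {F : Type*} [Field F] [Fintype F] {q : ℕ} {σ : F →+* F}

theorem complete (H : HS F q σ) {w z u x : Fin 3 → F} (hw : BH σ 3 w w = 1) (hz : BH σ 3 z z = 1) (hu : BH σ 3 u u = 1)
    (hwz : BH σ 3 w z = 0) (hwu : BH σ 3 w u = 0) (hzu : BH σ 3 z u = 0)
    (h1 : BH σ 3 x w = 0) (h2 : BH σ 3 x z = 0) (h3 : BH σ 3 x u = 0) : x = 0 := by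
  have hon : ∀ i j : Fin 3, BH σ 3 ((![w, z, u] : Fin 3 → (Fin 3 → F)) i) ((![w, z, u] : Fin 3 → (Fin 3 → F)) j) = if i = j then 1 else 0 := by
    intro i j
    fin_cases i <;> fin_cases j
    · simpa using hw
    · simpa using hwz
    · simpa using hwu
    · simpa using BH_zero_symm H hwz
    · simpa using hz
    · simpa using hzu
    · simpa using BH_zero_symm H hwu
    · simpa using BH_zero_symm H hzu
    · simpa using hu
  have hli := orthonormal_indep hon
  have hsp := hli.span_eq_top_of_card_eq_finrank (by simp)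
  apply BH_nondeg (σ := σ) (n := 3) x
  intro y
  have hy : y ∈ Submodule.span F (Set.range (![w, z, u] : Fin 3 → (Fin 3 → F))) := by rw [hsp]; exact Submodule.mem_top
  induction hy using Submodule.span_induction with
  | mem y hy =>
    obtain ⟨i, rfl⟩ := hy
    fin_cases i
    · exact h1
    · exact h2
    · exact h3
  | zero => simp
  | add a b _ _ ha hb => rw [map_add, ha, hb, add_zero]
  | smul c a _ ha => rw [map_smul, ha, smul_zero]

/-- unit vectors are conjugate up to scalars under `SU_3` -/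
theorem trans_unit (H : HS F q σ) {w z : Fin 3 → F} (hw : BH σ 3 w w = 1) (hz : BH σ 3 z z = 1) :
    ∃ (g : Cfsg.SU 3 F q) (c : F), mt g *ᵥ w = c • z := by
  have hw' : ∀ i j : Fin 1, BH σ 3 ((fun _ => w : Fin 1 → (Fin 3 → F)) i) ((fun _ => w : Fin 1 → (Fin 3 → F)) j) = if i = j then 1 else 0 := by
    intro i j
    rw [if_pos (Subsingleton.elim i j)]
    exact hw
  have hz' : ∀ i j : Fin 1, BH σ 3 ((fun _ => z : Fin 1 → (Fin 3 → F)) i) ((fun _ => z : Fin 1 → (Fin 3 → F)) j) = if i = j then 1 else 0 := by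
    intro i j
    rw [if_pos (Subsingleton.elim i j)]
    exact hz
  obtain ⟨g, hg, hgw⟩ := BH_witt (σ := σ) (n := 3) H.hσ2 H.hσi (fun _ => w : Fin 1 → (Fin 3 → F)) (fun _ => z)
    (orthonormal_indep hw') (orthonormal_indep hz') (fun i j => (hw' i j).trans (hz' i j).symm)
  have hgw : g w = z := hgw 0
  obtain ⟨A, hA⟩ := (guIso (n := 3) H.hσ).surjective ⟨g, hg⟩
  have hAv : ∀ v, (A.1 : Matrix (Fin 3) (Fin 3) F) *ᵥ v = g v := by
    intro v
    have := congrArg (fun f : UGrp (BH σ 3) => (f.1 : (Fin 3 → F) ≃ₗ[F] (Fin 3 → F)) v) hA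
    exact this
  set M : Matrix (Fin 3) (Fin 3) F := (A.1 : Matrix (Fin 3) (Fin 3) F) with hM
  have hdu : IsUnit M.det := (Matrix.isUnit_iff_isUnit_det _).1 A.1.isUnit
  have hδ : M.det ^ (q + 1) = 1 := by
    have h1 := (mem_GU_iff' H.hσ A.1).1 A.2
    have h2 := congrArg Matrix.det h1
    rw [det_mul, det_transpose, det_one] at h2
    have h3 : (M.map σ).det = σ M.det := by
      rw [← RingHom.mapMatrix_apply, ← RingHom.map_det]
    rw [← hM, h3, H.hσ, ← pow_succ'] at h2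
    exact h2
  set δ := M.det with hδd
  have hδ0 : δ ≠ 0 := hdu.ne_zero
  set c := δ⁻¹ - 1 with hc
  have hcN : c + σ c + σ c * c = 0 := by
    have h1 : (δ⁻¹) ^ (q + 1) = 1 := by rw [inv_pow, hδ, inv_one]
    rw [pow_succ, ← H.hσ] at h1
    rw [hc, map_sub, map_one]
    linear_combination h1
  set D : Matrix (Fin 3) (Fin 3) F := 1 + vecMulVec (c • z) (σ ∘ z) with hD
  have hDd : D.det = δ⁻¹ := by
    rw [hD, det_rk, BH_dot, hz, hc]; ring
  have hDv : ∀ v, D *ᵥ v = (1 : F) • v + (c * BH σ 3 z v) • z := by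
    intro v
    rw [hD, add_mulVec, one_mulVec, vecMulVec_mulVec, BH_dot]
    ext i
    simp
    ring
  have hDp : ∀ x y, BH σ 3 (D *ᵥ x) (D *ᵥ y) = BH σ 3 x y := by
    intro x y
    rw [hDv, hDv, BH_lin H, hz, map_mul, BH_symm H.hσ2, map_one]
    linear_combination (BH σ 3 x z * BH σ 3 z y) * hcN
  have hAp : ∀ x y, BH σ 3 (M *ᵥ x) (M *ᵥ y) = BH σ 3 x y := by
    intro x y
    rw [hAv, hAv]
    exact hg x y
  refine ⟨⟨⟨D * M, by rw [det_mul, hDd, ← hδd, inv_mul_cancel₀ hδ0]⟩, ?_⟩, δ⁻¹, ?_⟩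
  · intro u v
    have h1 : BH σ 3 ((D * M) *ᵥ v) ((D * M) *ᵥ u) = BH σ 3 v u := by
      rw [← mulVec_mulVec, ← mulVec_mulVec, hDp, hAp]
    rw [BH_hermForm H.hσ, BH_hermForm H.hσ] at h1
    exact h1
  · show (D * M) *ᵥ w = δ⁻¹ • z
    rw [← mulVec_mulVec, hAv, hgw, hDv, hz, hc]
    ext i
    simp
    ring

theorem inv_conj (H : HS F q σ) {t x : Cfsg.SU 3 F q} (ht : t ≠ 1) (ht2 : t * t = 1) (hx : x ≠ 1) (hx2 : x * x = 1) :
    ∃ g : Cfsg.SU 3 F q, g * t * g⁻¹ = x := by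
  obtain ⟨w, hw, rfl⟩ := inv_form H ht ht2
  obtain ⟨z, hz, rfl⟩ := inv_form H hx hx2
  obtain ⟨g, c, hg⟩ := trans_unit H hw hz
  refine ⟨g, ?_⟩
  rw [T_conj H g hw]
  exact (T_smul H hg).symm

theorem inv_count (H : HS F q σ) : Nat.card {x : Cfsg.SU 3 F q // x ≠ 1 ∧ x * x = 1} = q ^ 2 * (q ^ 2 - q + 1) := by
  have h := count_inv H (fun _ => True) (fun _ => True) (fun _ _ => Iff.rfl)
  have e1 : Nat.card {x : Cfsg.SU 3 F q // x ≠ 1 ∧ x * x = 1 ∧ True} = Nat.card {x : Cfsg.SU 3 F q // x ≠ 1 ∧ x * x = 1} :=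
    Nat.card_congr (Equiv.subtypeEquivRight (by intro x; simp))
  have e2 : Nat.card {w : Fin 3 → F // BH σ 3 w w = 1 ∧ True} = cntH F q 3 1 := by
    unfold cntH
    apply Nat.card_congr
    refine Equiv.subtypeEquivRight ?_
    intro x
    rw [BH_self H.hσ]
    simp
  rw [e1, e2, cntH_one H.hF] at h
  have hq := q_pos H
  have h3 : ¬ Even 3 := by decide
  rw [if_neg h3] at h
  obtain ⟨m, hm⟩ : ∃ m, q = m + 1 := ⟨q - 1, by omega⟩
  have h4 : q ^ 2 - q = m * (m + 1) := by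
    rw [hm]
    have : (m + 1) ^ 2 = m * (m + 1) + (m + 1) := by ring
    omega
  rw [h4]
  have h5 : (q + 1) * (q ^ 2 * (m * (m + 1) + 1)) = q ^ (3 - 1) * (q ^ 3 + 1) := by
    rw [hm]
    simp only [show 3 - 1 = 2 by norm_num]
    ring
  rw [← h5] at h
  exact Nat.eq_of_mul_eq_mul_left (by omega) h

theorem card_cent (H : HS F q σ) {t : Cfsg.SU 3 F q} (ht : t ≠ 1) (ht2 : t * t = 1) :
    Nat.card (Subgroup.centralizer ({t} : Set (Cfsg.SU 3 F q))) = q * (q + 1) * (q ^ 2 - 1) := by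
  haveI : Finite (Cfsg.SU 3 F q) := inferInstance
  have h1 : Nat.card (Cfsg.SU 3 F q) = Nat.card (Subgroup.centralizer ({t} : Set (Cfsg.SU 3 F q))) *
      Nat.card {x : Cfsg.SU 3 F q // x ≠ 1 ∧ x * x = 1} := by
    apply card_fiber (fun g : Cfsg.SU 3 F q => (⟨g * t * g⁻¹, by
      intro h
      apply ht
      rw [mul_inv_eq_one] at h
      exact mul_left_cancel (h.trans (mul_one g).symm), by
      have : g * t * g⁻¹ * (g * t * g⁻¹) = g * (t * t) * g⁻¹ := by group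
      rw [this, ht2, mul_one, mul_inv_cancel]⟩ : {x : Cfsg.SU 3 F q // x ≠ 1 ∧ x * x = 1}))
    rintro ⟨x, hx, hx2⟩
    obtain ⟨g0, hg0⟩ := inv_conj H ht ht2 hx hx2
    apply Nat.card_congr
    refine ⟨fun g => ⟨g0⁻¹ * g.1, ?_⟩, fun c => ⟨g0 * c.1, ?_⟩, ?_, ?_⟩
    · rw [Subgroup.mem_centralizer_singleton_iff]
      have e1 : g.1 * t * g.1⁻¹ = x := congrArg Subtype.val g.2
      have e2 : g.1 * t = g0 * t * g0⁻¹ * g.1 := mul_inv_eq_iff_eq_mul.1 (e1.trans hg0.symm)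
      rw [mul_assoc, e2]
      group
    · apply Subtype.ext
      have e1 := (Subgroup.mem_centralizer_singleton_iff).1 c.2
      show g0 * c.1 * t * (g0 * c.1)⁻¹ = x
      rw [← hg0]
      have : g0 * c.1 * t * (g0 * c.1)⁻¹ = g0 * (c.1 * t) * (c.1)⁻¹ * g0⁻¹ := by group
      rw [this, e1]
      group
    · rintro ⟨g, hg⟩
      apply Subtype.ext
      simp
    · rintro ⟨c, hc⟩
      apply Subtype.ext
      simp
  have h3 := card_SU (n := 3) H.hF (by norm_num)
  rw [h1, inv_count H] at h3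
  have hq := q_pos H
  have h5 : ∏ i ∈ Finset.range 3, (if Even i then q ^ (i + 1) + 1 else q ^ (i + 1) - 1) = (q + 1) * (q ^ 2 - 1) * (q ^ 3 + 1) := by
    rw [Finset.prod_range_succ, Finset.prod_range_succ, Finset.prod_range_succ, Finset.prod_range_zero]
    have e0 : Even 0 := by decide
    have e1 : ¬ Even 1 := by decide
    have e2 : Even 2 := by decide
    rw [if_pos e0, if_neg e1, if_pos e2]
    simp
  rw [h5] at h3
  obtain ⟨m, hm⟩ : ∃ m, q = m + 1 := ⟨q - 1, by omega⟩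
  have h4 : q ^ 2 - q = m * (m + 1) := by
    rw [hm]
    have : (m + 1) ^ 2 = m * (m + 1) + (m + 1) := by ring
    omega
  have h6 : q ^ 2 - 1 = m * (m + 2) := by
    rw [hm]
    have : (m + 1) ^ 2 = m * (m + 2) + 1 := by ring
    omega
  rw [h4, h6] at h3
  rw [h6]
  set C := Nat.card (Subgroup.centralizer ({t} : Set (Cfsg.SU 3 F q)))
  have h7 : ((q + 1) * (q ^ 2 * (m * (m + 1) + 1))) * C = ((q + 1) * (q ^ 2 * (m * (m + 1) + 1))) * (q * (q + 1) * (m * (m + 2))) := by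
    calc ((q + 1) * (q ^ 2 * (m * (m + 1) + 1))) * C = (q + 1) * (C * (q ^ 2 * (m * (m + 1) + 1))) := by ring
      _ = q ^ (3 * (3 - 1) / 2) * ((q + 1) * (m * (m + 2)) * (q ^ 3 + 1)) := h3
      _ = _ := by
        rw [show 3 * (3 - 1) / 2 = 3 by norm_num, hm]
        ring
  exact Nat.eq_of_mul_eq_mul_left (by positivity) h7

theorem third_unique (H : HS F q σ) {t x : Cfsg.SU 3 F q} (ht : t ≠ 1) (ht2 : t * t = 1) (hx : x ≠ 1) (hx2 : x * x = 1) (hxt : x ≠ t)
    (hc : Commute t x) :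
    Nat.card {y : Cfsg.SU 3 F q // y ≠ 1 ∧ y * y = 1 ∧ y ≠ t ∧ y ≠ x ∧ Commute t y ∧ Commute x y} = 1 := by
  obtain ⟨w, hw, rfl⟩ := inv_form H ht ht2
  obtain ⟨z, hz, rfl⟩ := inv_form H hx hx2
  have hwz : BH σ 3 w z = 0 := by
    rcases T_comm H hc with h | h
    · exact h
    · exact absurd h.symm hxt
  obtain ⟨u, hu, hwu, hzu⟩ := exists_third H hw hz hwz
  rw [Nat.card_eq_one_iff_unique]
  have hne : ∀ {a b : Fin 3 → F} (ha : BH σ 3 a a = 1) (hb : BH σ 3 b b = 1), BH σ 3 a b = 0 → TT H b hb ≠ TT H a ha := by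
    intro a b ha hb hab h
    have := T_eq H h.symm
    rw [hab, zero_smul] at this
    rw [this] at hb
    simp at hb
  refine ⟨⟨?_⟩, ⟨⟨TT H u hu, TT_ne H _, TT_sq H _, hne hw hu hwu, hne hz hu hzu, T_comm_perp H hw hu hwu, T_comm_perp H hz hu hzu⟩⟩⟩
  have key : ∀ y : {y : Cfsg.SU 3 F q // y ≠ 1 ∧ y * y = 1 ∧ y ≠ TT H w hw ∧ y ≠ TT H z hz ∧ Commute (TT H w hw) y ∧ Commute (TT H z hz) y},
      y.1 = TT H u hu := by
    rintro ⟨y, hy, hy2, hy3, hy4, hy5, hy6⟩
    obtain ⟨v, hv, rfl⟩ := inv_form H hy hy2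
    have h1 : BH σ 3 w v = 0 := by
      rcases T_comm H hy5 with h | h
      · exact h
      · exact absurd h.symm hy3
    have h2 : BH σ 3 z v = 0 := by
      rcases T_comm H hy6 with h | h
      · exact h
      · exact absurd h.symm hy4
    have h3 : v - BH σ 3 u v • u = 0 := by
      apply complete H hw hz hu hwz hwu hzu
      · apply BH_zero_symm H
        rw [map_sub, map_smul, h1, hwu]; simp
      · apply BH_zero_symm H
        rw [map_sub, map_smul, h2, hzu]; simp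
      · apply BH_zero_symm H
        rw [map_sub, map_smul, hu]; simp
    exact (T_smul H (hw := hu) (hz := hv) (sub_eq_zero.1 h3)).symm
  intro a b
  exact Subtype.ext ((key a).trans (key b).symm)

end CfsgLib.Si
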