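import Cfsg.Agent.LibSi4

set_option autoImplicit false

/-! Involutions of `SU_3(q)`, `q` odd, V: the commuting involution graph (seat helper26). -/

namespace CfsgLib.Si

open Matrix Module Cfsg.Agent.H22

variable {F : Type*} [Field F] [Fintype F] {q : ℕ} {σ : F →+* F}

theorem self_sub (H : HS F q σ) {w z : Fin 3 → F} (hw : BH σ 3 w w = 1) (β : F) (hβ : BH σ 3 w z = β) :
    BH σ 3 (z - β • w) (z - β • w) = BH σ 3 z z - β ^ (q + 1) ∧ BH σ 3 w (z - β • w) = 0 := by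
  have h1 : BH σ 3 z w = σ β := by rw [← hβ, BH_symm H.hσ2]
  constructor
  · have e : z - β • w = (1 : F) • z + (-β) • w := by rw [one_smul, neg_smul, sub_eq_add_neg]
    rw [e, BH_lin H, hw, h1, hβ, map_neg, map_one, pow_succ, ← H.hσ]
    ring
  · rw [map_sub, map_smul, hβ, hw, smul_eq_mul, mul_one, sub_self]

theorem decomp (H : HS F q σ) {w : Fin 3 → F} (hw : BH σ 3 w w = 1) (R : F → Prop) (S : (Fin 3 → F) → Prop) (k : ℕ)
    (hk : ∀ β, R β → Nat.card {y : Fin 3 → F // BH σ 3 y y = 1 - β ^ (q + 1) ∧ BH σ 3 w y = 0 ∧ S y} = k) :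
    Nat.card {z : Fin 3 → F // BH σ 3 z z = 1 ∧ R (BH σ 3 w z) ∧ S (z - BH σ 3 w z • w)} = k * Nat.card {β : F // R β} := by
  apply card_fiber (fun z : {z : Fin 3 → F // BH σ 3 z z = 1 ∧ R (BH σ 3 w z) ∧ S (z - BH σ 3 w z • w)} => (⟨BH σ 3 w z.1, z.2.2.1⟩ : {β : F // R β}))
  rintro ⟨β, hβ⟩
  rw [← hk β hβ]
  apply Nat.card_congr
  have hwy : ∀ y : Fin 3 → F, BH σ 3 w y = 0 → BH σ 3 w (y + β • w) = β := by
    intro y hy
    rw [map_add, map_smul, hy, hw, smul_eq_mul, mul_one, zero_add]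
  refine ⟨fun a => ⟨a.1.1 - β • w, ?_, ?_, ?_⟩, fun y => ⟨⟨y.1 + β • w, ?_, ?_, ?_⟩, ?_⟩, ?_, ?_⟩
  · have e1 : BH σ 3 w a.1.1 = β := congrArg Subtype.val a.2
    rw [(self_sub H hw β e1).1, a.1.2.1]
  · have e1 : BH σ 3 w a.1.1 = β := congrArg Subtype.val a.2
    exact (self_sub H hw β e1).2
  · have e1 : BH σ 3 w a.1.1 = β := congrArg Subtype.val a.2
    have := a.1.2.2.2
    rwa [e1] at this
  · have h1 := (self_sub H hw β (hwy y.1 y.2.2.1)).1
    rw [add_sub_cancel_right, y.2.1] at h1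
    linear_combination -h1
  · rw [hwy y.1 y.2.2.1]; exact hβ
  · rw [hwy y.1 y.2.2.1, add_sub_cancel_right]; exact y.2.2.2
  · exact Subtype.ext (hwy y.1 y.2.2.1)
  · rintro ⟨⟨z, hz⟩, hz2⟩
    apply Subtype.ext
    apply Subtype.ext
    exact sub_add_cancel _ _
  · rintro ⟨y, hy⟩
    apply Subtype.ext
    exact add_sub_cancel_right _ _

theorem not_comm_iff (H : HS F q σ) {w z : Fin 3 → F} (hw : BH σ 3 w w = 1) (hz : BH σ 3 z z = 1) :
    ¬ Commute (TT H w hw) (TT H z hz) ↔ BH σ 3 w z ≠ 0 ∧ z ≠ BH σ 3 w z • w := by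
  constructor
  · intro h
    refine ⟨fun h0 => h (T_comm_perp H hw hz h0), fun h0 => h ?_⟩
    rw [T_smul H (hw := hw) (hz := hz) h0]
  · rintro ⟨h1, h3⟩ hc
    rcases T_comm H hc with h | h
    · exact h1 h
    · exact h3 (T_eq H h)

/-- if `N(β) ≠ 1` there is a common neighbour -/
theorem common (H : HS F q σ) {w z : Fin 3 → F} (hw : BH σ 3 w w = 1) (hz : BH σ 3 z z = 1) (hN : BH σ 3 w z ^ (q + 1) ≠ 1) :
    ∃ u, BH σ 3 u u = 1 ∧ BH σ 3 w u = 0 ∧ BH σ 3 u z = 0 := by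
  obtain ⟨h1, h3⟩ := self_sub H hw (BH σ 3 w z) rfl
  rw [hz] at h1
  have h4 : BH σ 3 (z - BH σ 3 w z • w) (z - BH σ 3 w z • w) ≠ 0 := by
    rw [h1]
    intro h0
    exact hN (sub_eq_zero.1 h0).symm
  obtain ⟨l, hl0, hl⟩ := exists_unit H h4
  have h5 : BH σ 3 (l • (z - BH σ 3 w z • w)) (l • (z - BH σ 3 w z • w)) = 1 := by rw [BH_smul H]; exact hl
  have h6 : BH σ 3 w (l • (z - BH σ 3 w z • w)) = 0 := by rw [map_smul, h3, smul_zero]
  obtain ⟨u, hu, hu1, hu2⟩ := exists_third H hw h5 h6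
  refine ⟨u, hu, hu1, ?_⟩
  have h7 := BH_zero_symm H hu2
  have h8 := BH_zero_symm H hu1
  rw [map_smul, map_sub, map_smul, h8, smul_zero, sub_zero, smul_eq_mul] at h7
  exact (mul_eq_zero.1 h7).resolve_left hl0

/-- conversely, a common neighbour of non-commuting involutions forces `N(β) ≠ 1` -/
theorem common_conv (H : HS F q σ) {w z u : Fin 3 → F} (hw : BH σ 3 w w = 1) (hz : BH σ 3 z z = 1) (hu : BH σ 3 u u = 1)
    (h1 : BH σ 3 w u = 0) (h3 : BH σ 3 u z = 0) (hne : z ≠ BH σ 3 w z • w) : BH σ 3 w z ^ (q + 1) ≠ 1 := by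
  intro hN
  apply hne
  obtain ⟨h4, h5⟩ := self_sub H hw (BH σ 3 w z) rfl
  rw [hz, hN, sub_self] at h4
  have h6 : BH σ 3 u (z - BH σ 3 w z • w) = 0 := by
    rw [map_sub, map_smul, h3, BH_zero_symm H h1, smul_zero, sub_zero]
  exact sub_eq_zero.1 (iso_zero H hw hu h1 h4 h5 h6)

theorem nbr_iff (H : HS F q σ) {w z : Fin 3 → F} (hw : BH σ 3 w w = 1) (hz : BH σ 3 z z = 1) :
    (¬ Commute (TT H w hw) (TT H z hz) ∧ ∃ y : Cfsg.SU 3 F q, y ≠ 1 ∧ y * y = 1 ∧ Commute (TT H w hw) y ∧ Commute y (TT H z hz)) ↔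
      (BH σ 3 w z ≠ 0 ∧ BH σ 3 w z ^ (q + 1) ≠ 1) := by
  constructor
  · rintro ⟨h1, y, hy, hy2, hy3, hy4⟩
    have h5 := (not_comm_iff H hw hz).1 h1
    obtain ⟨u, hu, rfl⟩ := inv_form H hy hy2
    have h6 : BH σ 3 w u = 0 := by
      rcases T_comm H hy3 with h | h
      · exact h
      · rw [← h] at hy4; exact absurd hy4 h1
    have h7 : BH σ 3 u z = 0 := by
      rcases T_comm H hy4 with h | h
      · exact h
      · rw [h] at hy3; exact absurd hy3 h1
    exact ⟨h5.1, common_conv H hw hz hu h6 h7 h5.2⟩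
  · rintro ⟨h1, h3⟩
    refine ⟨(not_comm_iff H hw hz).2 ⟨h1, ?_⟩, ?_⟩
    · intro h0
      apply h3
      have h4 := hz
      rw [h0, BH_smul H, hw, mul_one, H.hσ, ← pow_succ] at h4
      exact h4
    · obtain ⟨u, hu, hu1, hu2⟩ := common H hw hz h3
      exact ⟨TT H u hu, TT_ne H _, TT_sq H _, T_comm_perp H hw hu hu1, T_comm_perp H hu hz hu2⟩

theorem far_iff (H : HS F q σ) {w z : Fin 3 → F} (hw : BH σ 3 w w = 1) (hz : BH σ 3 z z = 1) :
    (¬ Commute (TT H w hw) (TT H z hz) ∧ ∀ y : Cfsg.SU 3 F q, y ≠ 1 → y * y = 1 → ¬ (Commute (TT H w hw) y ∧ Commute y (TT H z hz))) ↔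
      (BH σ 3 w z ^ (q + 1) = 1 ∧ z - BH σ 3 w z • w ≠ 0) := by
  constructor
  · rintro ⟨h1, h3⟩
    have h5 := (not_comm_iff H hw hz).1 h1
    refine ⟨?_, fun h0 => h5.2 (sub_eq_zero.1 h0)⟩
    by_contra h0
    obtain ⟨-, y, hy, hy2, hy3, hy4⟩ := (nbr_iff H hw hz).2 ⟨h5.1, h0⟩
    exact h3 y hy hy2 ⟨hy3, hy4⟩
  · rintro ⟨h1, h3⟩
    have h0 : BH σ 3 w z ≠ 0 := by
      intro h0
      rw [h0, zero_pow (by omega)] at h1
      exact zero_ne_one h1
    have h4 := (not_comm_iff H hw hz).2 ⟨h0, fun h => h3 (sub_eq_zero.2 h)⟩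
    refine ⟨h4, fun y hy hy2 hyc => ?_⟩
    exact ((nbr_iff H hw hz).1 ⟨h4, y, hy, hy2, hyc.1, hyc.2⟩).2 h1

theorem fix_norm (H : HS F q σ) (β : F) : (1 - β ^ (q + 1)) ^ q = 1 - β ^ (q + 1) := by
  rw [← H.hσ, map_sub, map_one]
  have : σ (β ^ (q + 1)) = β ^ (q + 1) := by
    rw [pow_succ, ← H.hσ, map_mul, H.hσ2, mul_comm]
  rw [this]

theorem card_rest (H : HS F q σ) : Nat.card {β : F // β ≠ 0 ∧ β ^ (q + 1) ≠ 1} + (q + 1) + 1 = q ^ 2 := by
  classical
  have h1 := card_norm_fiber H.hF 1 one_ne_zero (one_pow _)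
  rw [Nat.card_eq_fintype_card, Fintype.card_subtype] at h1 ⊢
  have h3 : (Finset.univ.filter (fun β : F => β = 0)).card = 1 := by
    rw [Finset.filter_eq' _ (0 : F)]
    simp
  have hF : (Finset.univ : Finset F).card = q ^ 2 := by rw [Finset.card_univ, H.hF]
  have key : (Finset.univ.filter (fun β : F => β ≠ 0 ∧ β ^ (q + 1) ≠ 1)).card + (Finset.univ.filter (fun β : F => β ^ (q + 1) = 1)).card +
      (Finset.univ.filter (fun β : F => β = 0)).card = (Finset.univ : Finset F).card := by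
    rw [← Finset.card_union_of_disjoint, ← Finset.card_union_of_disjoint]
    · congr 1
      ext β
      simp only [Finset.mem_union, Finset.mem_filter, Finset.mem_univ, true_and, iff_true]
      tauto
    · rw [Finset.disjoint_left]
      intro β hβ
      simp only [Finset.mem_union, Finset.mem_filter, Finset.mem_univ, true_and] at hβ ⊢
      rcases hβ with h | h
      · exact h.1
      · rintro rfl
        rw [zero_pow (by omega)] at h
        exact zero_ne_one h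
    · rw [Finset.disjoint_left]
      intro β hβ
      simp only [Finset.mem_filter, Finset.mem_univ, true_and] at hβ ⊢
      exact hβ.2
  rw [h3, hF] at key
  rw [← key]
  congr 2
  exact h1.symm

theorem count_comm (H : HS F q σ) {w : Fin 3 → F} (hw : BH σ 3 w w = 1) :
    Nat.card {x : Cfsg.SU 3 F q // x ≠ 1 ∧ x * x = 1 ∧ x ≠ TT H w hw ∧ Commute (TT H w hw) x} = q * (q - 1) := by
  have h := count_inv H (fun z => BH σ 3 w z = 0) (fun x => x ≠ TT H w hw ∧ Commute (TT H w hw) x) (by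
    intro z hz
    constructor
    · rintro ⟨h1, h3⟩
      rcases T_comm H h3 with h | h
      · exact h
      · exact absurd h.symm h1
    · intro h0
      refine ⟨?_, T_comm_perp H hw hz h0⟩
      intro h1
      have := T_eq H h1.symm
      rw [h0, zero_smul] at this
      rw [this] at hz
      simp at hz)
  rw [cnt1 H hw 1, cntH2 H one_ne_zero (one_pow _)] at h
  have hq := q_pos H
  obtain ⟨m, hm⟩ : ∃ m, q = m + 1 := ⟨q - 1, by omega⟩
  have h6 : q ^ 2 - 1 = (q + 1) * (q - 1) := by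
    rw [hm]
    have : (m + 1) ^ 2 = (m + 1 + 1) * m + 1 := by ring
    rw [show m + 1 - 1 = m by omega]
    omega
  rw [h6, show q * ((q + 1) * (q - 1)) = (q + 1) * (q * (q - 1)) by ring] at h
  exact Nat.eq_of_mul_eq_mul_left (by omega) h

theorem count_nbr (H : HS F q σ) {w : Fin 3 → F} (hw : BH σ 3 w w = 1) :
    Nat.card {x : Cfsg.SU 3 F q // x ≠ 1 ∧ x * x = 1 ∧ ¬ Commute (TT H w hw) x ∧
        ∃ y : Cfsg.SU 3 F q, y ≠ 1 ∧ y * y = 1 ∧ Commute (TT H w hw) y ∧ Commute y x} = q * (q - 2) * (q ^ 2 - 1) := by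
  have h := count_inv H (fun z => (BH σ 3 w z ≠ 0 ∧ BH σ 3 w z ^ (q + 1) ≠ 1) ∧ True) (fun x => ¬ Commute (TT H w hw) x ∧
        ∃ y : Cfsg.SU 3 F q, y ≠ 1 ∧ y * y = 1 ∧ Commute (TT H w hw) y ∧ Commute y x) (by
    intro z hz
    rw [nbr_iff H hw hz, and_true])
  rw [decomp H hw (fun β => β ≠ 0 ∧ β ^ (q + 1) ≠ 1) (fun _ => True) (q * (q ^ 2 - 1)) (by
    rintro β ⟨hβ0, hβ1⟩
    have h1 : (1 - β ^ (q + 1)) ≠ 0 := fun h0 => hβ1 (sub_eq_zero.1 h0).symm
    rw [← cntH2 H h1 (fix_norm H β), ← cnt1 H hw]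
    apply Nat.card_congr
    exact Equiv.subtypeEquivRight (by intro x; rw [and_true]))] at h
  have hr := card_rest H
  have hq := q_pos H
  obtain ⟨m, hm⟩ : ∃ m, q = m + 2 := ⟨q - 2, by omega⟩
  have h7 : Nat.card {β : F // β ≠ 0 ∧ β ^ (q + 1) ≠ 1} = (q - 2) * (q + 1) := by
    have : q ^ 2 = (q - 2) * (q + 1) + (q + 1) + 1 := by
      rw [hm, show m + 2 - 2 = m by omega]; ring
    omega
  rw [h7, show q * (q ^ 2 - 1) * ((q - 2) * (q + 1)) = (q + 1) * (q * (q - 2) * (q ^ 2 - 1)) by ring] at h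
  exact Nat.eq_of_mul_eq_mul_left (by omega) h

theorem count_far (H : HS F q σ) {w : Fin 3 → F} (hw : BH σ 3 w w = 1) :
    Nat.card {x : Cfsg.SU 3 F q // x ≠ 1 ∧ x * x = 1 ∧ ¬ Commute (TT H w hw) x ∧
        ∀ y : Cfsg.SU 3 F q, y ≠ 1 → y * y = 1 → ¬ (Commute (TT H w hw) y ∧ Commute y x)} = (q + 1) * (q ^ 2 - 1) := by
  have h := count_inv H (fun z => BH σ 3 w z ^ (q + 1) = 1 ∧ z - BH σ 3 w z • w ≠ 0) (fun x => ¬ Commute (TT H w hw) x ∧
        ∀ y : Cfsg.SU 3 F q, y ≠ 1 → y * y = 1 → ¬ (Commute (TT H w hw) y ∧ Commute y x)) (by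
    intro z hz
    rw [far_iff H hw hz])
  rw [decomp H hw (fun β => β ^ (q + 1) = 1) (fun y => y ≠ 0) ((q ^ 2 - 1) * (q + 1)) (by
    intro β hβ
    rw [hβ, sub_self]
    have h1 := cnt1 H hw 0
    rw [cntH20 H] at h1
    have h3 : Nat.card {y : Fin 3 → F // BH σ 3 y y = 0 ∧ BH σ 3 w y = 0} =
        Nat.card {y : Fin 3 → F // BH σ 3 y y = 0 ∧ BH σ 3 w y = 0 ∧ y ≠ 0} + 1 := by
      classical
      rw [Nat.card_eq_fintype_card, Nat.card_eq_fintype_card, Fintype.card_subtype, Fintype.card_subtype]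
      have e : (Finset.univ.filter (fun y : Fin 3 → F => BH σ 3 y y = 0 ∧ BH σ 3 w y = 0)) =
          insert 0 (Finset.univ.filter (fun y : Fin 3 → F => BH σ 3 y y = 0 ∧ BH σ 3 w y = 0 ∧ y ≠ 0)) := by
        ext y
        simp only [Finset.mem_filter, Finset.mem_univ, true_and, Finset.mem_insert]
        constructor
        · rintro ⟨h4, h5⟩
          by_cases hy : y = 0
          · exact Or.inl hy
          · exact Or.inr ⟨h4, h5, hy⟩
        · rintro (rfl | ⟨h4, h5, -⟩)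
          · simp
          · exact ⟨h4, h5⟩
      rw [e, Finset.card_insert_of_notMem (by simp)]
    rw [h1] at h3
    omega), card_norm_fiber H.hF 1 one_ne_zero (one_pow _),
    show (q ^ 2 - 1) * (q + 1) * (q + 1) = (q + 1) * ((q + 1) * (q ^ 2 - 1)) by ring] at h
  exact Nat.eq_of_mul_eq_mul_left (by omega) h

/-- the commuting involution graph has diameter at most three -/
theorem diam (H : HS F q σ) {w z : Fin 3 → F} (hw : BH σ 3 w w = 1) (hz : BH σ 3 z z = 1) :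
    ∃ y x : Cfsg.SU 3 F q, y ≠ 1 ∧ y * y = 1 ∧ x ≠ 1 ∧ x * x = 1 ∧
        Commute (TT H w hw) y ∧ Commute y x ∧ Commute x (TT H z hz) := by
  by_cases hN : BH σ 3 w z ^ (q + 1) = 1
  · by_cases h0 : z = BH σ 3 w z • w
    · have e := T_smul H (hw := hw) (hz := hz) h0
      refine ⟨TT H w hw, TT H w hw, TT_ne H _, TT_sq H _, TT_ne H _, TT_sq H _, Commute.refl _, Commute.refl _, ?_⟩
      rw [← e]
    · -- the hard case
      obtain ⟨hy1, hy2⟩ := self_sub H hw (BH σ 3 w z) rfl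
      rw [hz, hN, sub_self] at hy1
      set z' := z - BH σ 3 w z • w with hz'
      have hz'0 : z' ≠ 0 := fun h => h0 (sub_eq_zero.1 h)
      have hperp : ∀ u, BH σ 3 w u = 0 → BH σ 3 u z = BH σ 3 u z' := by
        intro u hu
        rw [hz', map_sub, map_smul, BH_zero_symm H hu, smul_zero, sub_zero]
      obtain ⟨u, hu, hwu, hNu⟩ : ∃ u, BH σ 3 u u = 1 ∧ BH σ 3 w u = 0 ∧ BH σ 3 u z ^ (q + 1) ≠ 1 := by
        obtain ⟨e, he, hwe⟩ := exists_second H hw
        by_cases ha : BH σ 3 e z ^ (q + 1) = 1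
        · -- second vector
          have ha' : BH σ 3 e z' ^ (q + 1) = 1 := by rw [← hperp e hwe]; exact ha
          obtain ⟨hf1, hf2⟩ := self_sub H he (BH σ 3 e z') rfl
          rw [hy1, ha', zero_sub] at hf1
          set y := z' - BH σ 3 e z' • e with hy
          obtain ⟨l, hl0, hl⟩ := exists_unit H (u := y) (by rw [hf1]; exact neg_ne_zero.2 one_ne_zero)
          have hwy : BH σ 3 w y = 0 := by
            rw [hy, map_sub, map_smul, hy2, hwe, smul_zero, sub_zero]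
          refine ⟨l • y, by rw [BH_smul H]; exact hl, by rw [map_smul, hwy, smul_zero], ?_⟩
          have h5 : BH σ 3 y z' = -1 := by
            have h6 : z' = y + BH σ 3 e z' • e := by rw [hy]; abel
            have h7 : BH σ 3 y z' = BH σ 3 y y + BH σ 3 e z' * BH σ 3 y e := by
              have h10 : BH σ 3 y z' = BH σ 3 y (y + BH σ 3 e z' • e) := congrArg (fun v => BH σ 3 y v) h6
              rw [h10, map_add, map_smul, smul_eq_mul]
            rw [h7, BH_zero_symm H hf2, mul_zero, add_zero, hf1]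
          have h8 : BH σ 3 (l • y) z = -σ l := by
            rw [hperp (l • y) (by rw [map_smul, hwy, smul_zero])]
            simp only [LinearMap.map_smulₛₗ, LinearMap.smul_apply, smul_eq_mul, h5]
            ring
          rw [h8]
          intro h9
          rw [hf1] at hl
          rw [pow_succ, ← H.hσ, map_neg, H.hσ2] at h9
          apply H.h2
          linear_combination (-1 : F) * h9 - hl
        · exact ⟨e, he, hwe, ha⟩
      obtain ⟨v, hv, hv1, hv2⟩ := common H hu hz hNu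
      exact ⟨TT H u hu, TT H v hv, TT_ne H _, TT_sq H _, TT_ne H _, TT_sq H _, T_comm_perp H hw hu hwu, T_comm_perp H hu hv hv1,
        T_comm_perp H hv hz hv2⟩
  · obtain ⟨u, hu, hu1, hu2⟩ := common H hw hz hN
    exact ⟨TT H u hu, TT H u hu, TT_ne H _, TT_sq H _, TT_ne H _, TT_sq H _, T_comm_perp H hw hu hu1, Commute.refl _, T_comm_perp H hu hz hu2⟩

end CfsgLib.Si
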