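import Mathlib
import Cfsg.Agent.EqBase
import Cfsg.Agent.LibSix28

set_option autoImplicit false

/-! Stabilisers of sets of six points (helper28). -/

namespace CfsgLib.SixB28

open Cfsg CfsgLib.Golay CfsgLib.M24 CfsgLib.Restr28 CfsgLib.Hexad28 CfsgLib.Six28
open scoped Pointwise

theorem card_umbral : Nat.card (fixL [23, 0, 1, 2, 3, 4]) = 3 := by
  have h := card_fixL [23, 0, 1, 2, 3] 4 8241104
    (fun p hp => by
      obtain ⟨g, hg, h⟩ := lev6 p hp
      exact ⟨g, fixL_le [23, 0, 1, 2, 3] [23, 0, 1, 2, 3, 5] (by decide) hg, h⟩)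
    (fun g hg => by
      have h0 : ¬ g (pt 4) ∈ fset 8536111 := fun h =>
        absurd ((mem_of_smul_eq (smul_base_octad (l := []) hg) (pt 4)).1 h) (by decide +kernel)
      revert h0; generalize g (pt 4) = p; revert p; decide +kernel)
  rw [card5] at h
  have e1 : pop 8241104 = 16 := by decide +kernel
  rw [e1, show [23, 0, 1, 2, 3] ++ [4] = [23, 0, 1, 2, 3, 4] from rfl] at h
  omega

/-- base special hexad -/
def s6 : Finset GolayPt := fset (B5 ||| 32)

/-- base umbral hexad -/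
def u6 : Finset GolayPt := fset (B5 ||| 16)

theorem mem_s6 : ∀ p, p ∈ s6 ↔ ∃ i ∈ [23, 0, 1, 2, 3, 5], p = pt i := by
  unfold s6
  decide +kernel

theorem mem_u6 : ∀ p, p ∈ u6 ↔ ∃ i ∈ [23, 0, 1, 2, 3, 4], p = pt i := by
  unfold u6
  decide +kernel

theorem s6_card : s6.card = 6 := by rw [s6, card_fset]; decide +kernel

theorem u6_card : u6.card = 6 := by rw [u6, card_fset]; decide +kernel

theorem s6_special : Special s6 := by
  refine ⟨fset 8536111, base_octad, ?_⟩
  rw [s6, fset_subset_iff (by decide) (by norm_num)]; decide +kernel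

theorem u6_not_special : ¬ Special u6 := by
  rintro ⟨o, ho, h⟩
  have h2 : b5 ⊆ u6 := by
    rw [b5, u6, fset_subset_iff B5_lt (by decide)]; decide +kernel
  have h3 : o = fset 8536111 := by
    apply octad_eq ho base_octad
    have h3 : b5 ⊆ o ∩ fset 8536111 := Finset.subset_inter (h2.trans h) b5_sub
    have h4 := Finset.card_le_card h3
    have h5 : b5.card = 5 := by rw [b5, card_fset]; decide +kernel
    omega
  rw [h3, u6, fset_subset_iff (by decide) (by norm_num)] at h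
  revert h; decide +kernel

theorem exists_conj6 {X Y : Finset GolayPt} (hX : X.card = 6) (hY : Y.card = 6) (h : Special X ↔ Special Y) :
    ∃ g ∈ M24, g • X = Y := by
  obtain ⟨σ, h1, _⟩ := exists_perm_pair (S := X) (U := X) (S' := Y) (U' := Y) (hX.trans hY.symm)
    (hX.trans hY.symm) (by rw [Finset.inter_self, Finset.inter_self, hX, hY])
  obtain ⟨g, hg, hgσ⟩ := agree6 σ hX (by rw [h1]; exact h)
  exact ⟨g, hg, by rw [smul_eq_of_agree hgσ subset_rfl, h1]⟩

theorem fix_special {E : Finset GolayPt} (hE : E.card = 6) (h : Special E) :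
    Nat.card {g : Equiv.Perm GolayPt // g ∈ M24 ∧ ∀ p ∈ E, g p = p} = 16 := by
  obtain ⟨k, hk, hkE⟩ := exists_conj6 s6_card hE ⟨fun _ => h, fun _ => s6_special⟩
  rw [card_fix_conj hk hkE, card_fix_of_fixL mem_s6, card6]

theorem fix_umbral {E : Finset GolayPt} (hE : E.card = 6) (h : ¬ Special E) :
    Nat.card {g : Equiv.Perm GolayPt // g ∈ M24 ∧ ∀ p ∈ E, g p = p} = 3 := by
  obtain ⟨k, hk, hkE⟩ := exists_conj6 u6_card hE ⟨fun h' => absurd h' u6_not_special, fun h' => absurd h' h⟩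
  rw [card_fix_conj hk hkE, card_fix_of_fixL mem_u6, card_umbral]

theorem induces {E : Finset GolayPt} (hE : E.card = 6) (σ : Equiv.Perm ↥E) : ∃ g ∈ M24, ∀ p : ↥E, g p = (σ p : ↥E) := by
  have h1 : Equiv.Perm.ofSubtype σ • E = E := by
    apply stab_iff.2
    intro x
    by_cases hx : x ∈ E
    · rw [Equiv.Perm.ofSubtype_apply_of_mem σ hx]
      simp [hx]
    · rw [Equiv.Perm.ofSubtype_apply_of_not_mem σ hx]
  obtain ⟨g, hg, h⟩ := agree6 (Equiv.Perm.ofSubtype σ) hE (by rw [h1])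
  refine ⟨g, hg, fun p => ?_⟩
  rw [h p p.2, Equiv.Perm.ofSubtype_apply_of_mem σ p.2]

theorem card_setwise {E : Finset GolayPt} (hE : E.card = 6) :
    Nat.card ↥(MulAction.stabilizer ↥M24 E) =
      720 * Nat.card {g : Equiv.Perm GolayPt // g ∈ M24 ∧ ∀ p ∈ E, g p = p} := by
  have hH : ∀ g ∈ MulAction.stabilizer ↥M24 E, ∀ x, (g : Equiv.Perm GolayPt) x ∈ E ↔ x ∈ E :=
    fun g hg => stabM_iff.1 hg
  have hsurj : Function.Surjective (rho _ E hH) := by
    intro σ
    obtain ⟨g, hg, h⟩ := induces hE σ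
    have hgE : g ∈ MulAction.stabilizer (Equiv.Perm GolayPt) E := by
      rw [MulAction.mem_stabilizer_iff]
      apply Finset.eq_of_subset_of_card_le
      · intro y hy
        rw [Finset.mem_smul_finset] at hy
        obtain ⟨x, hx, rfl⟩ := hy
        rw [Equiv.Perm.smul_def, h ⟨x, hx⟩]
        exact (σ ⟨x, hx⟩).2
      · rw [Finset.card_smul_finset]
    refine ⟨⟨⟨g, hg⟩, hgE⟩, ?_⟩
    apply Equiv.ext
    intro x
    apply Subtype.ext
    exact h x
  have h1 := Subgroup.card_eq_card_quotient_mul_card_subgroup (rho _ E hH).ker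
  rw [h1, Nat.card_congr (QuotientGroup.quotientKerEquivOfSurjective _ hsurj).toEquiv, Nat.card_perm,
    Nat.card_eq_fintype_card (α := ↥E), Fintype.card_coe, hE]
  congr 1
  refine Nat.card_congr ?_
  refine ⟨fun g => ⟨((g : ↥(MulAction.stabilizer ↥M24 E)) : ↥M24), ((g : ↥(MulAction.stabilizer ↥M24 E)) : ↥M24).2, ?_⟩,
    fun g => ⟨⟨⟨g, g.2.1⟩, stab_of_fixing g.2.2⟩, ?_⟩, ?_, ?_⟩
  · intro p hp
    have := congrArg (fun e => ((e ⟨p, hp⟩ : ↥E) : GolayPt)) g.2
    exact this
  · rw [MonoidHom.mem_ker]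
    apply Equiv.ext
    intro x
    apply Subtype.ext
    exact g.2.2 x x.2
  · intro g; rfl
  · intro g; rfl

end CfsgLib.SixB28
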