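import Mathlib

/-!
Derivation of the Steinberg relations of `SL₃` from a short list of relations.
-/

set_option autoImplicit false
set_option linter.all false

namespace CfsgLib.Slthree

section der

variable {G : Type*} [Group G] {F : Type*} [Field F]

/-- short list of relations -/
structure Dat3 (x : F → G) (d t c : G) (ζ : F) (N : ℕ) (B : Set F) : Prop where
  hζ0 : ζ ≠ 0
  hζN : ζ ^ N = -1
  hζ : ∀ a : F, a ≠ 0 → ∃ n : ℕ, a = ζ ^ n
  hB : ∀ S : AddSubgroup F, (∀ b ∈ B, b ∈ S) → (∀ b ∈ S, ζ ^ 3 * b ∈ S) → S = ⊤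
  hadd : ∀ a b, x (a + b) = x a * x b
  hd : ∀ a, d * x a * d⁻¹ = x (ζ * a)
  g5 : Commute (x 1) (d * (t⁻¹ * d * t))
  g6 : Commute d (t⁻¹ * d * t)
  g7 : x 1 * t * x 1 * t⁻¹ * x 1 = t
  c3 : c * c * c = 1
  tc : t * c⁻¹ * t = c
  hA : c * d * c⁻¹ = t * d * t⁻¹ * d⁻¹
  s1 : ∀ b ∈ B, Commute (x 1) (c * (c * (t * x (-b) * t⁻¹) * c⁻¹) * c⁻¹)
  s2 : ∀ b ∈ B, Commute (x 1) (c * (t * x (-b) * t⁻¹) * c⁻¹)
  s3 : ∀ b ∈ B, x 1 * (c * x b * c⁻¹) = c * (c * (t * x (-b) * t⁻¹) * c⁻¹) * c⁻¹ * (c * x b * c⁻¹) * x 1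

variable {x : F → G} {d t c : G} {ζ : F} {N : ℕ} {B : Set F}

namespace Dat3

/-- conjugations -/
abbrev cn (g : G) : MulAut G := MulAut.conj g

theorem cn_apply (g y : G) : cn g y = g * y * g⁻¹ := rfl

theorem cn_mul (a b g : G) : cn (a * b) g = cn a (cn b g) := by
  simp only [cn_apply]; group

theorem cn_inv_cn (a g : G) : cn a⁻¹ (cn a g) = g := by
  simp only [cn_apply]; group

theorem x0 (D : Dat3 x d t c ζ N B) : x 0 = 1 := by
  have := D.hadd 0 0
  rw [add_zero] at this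
  exact (mul_eq_left.1 this.symm)

theorem xneg (D : Dat3 x d t c ζ N B) (a : F) : x (-a) = (x a)⁻¹ := by
  apply eq_inv_of_mul_eq_one_left
  rw [← D.hadd, neg_add_cancel, D.x0]

theorem xcomm (D : Dat3 x d t c ζ N B) (a b : F) : Commute (x a) (x b) := by
  change x a * x b = x b * x a
  rw [← D.hadd, ← D.hadd, add_comm]

/-- induction over the field along powers of `ζ` -/
theorem ind (D : Dat3 x d t c ζ N B) {P : F → Prop} (h0 : P 0) (h1 : P 1) (hs : ∀ a, P a → P (ζ * a)) (a : F) : P a := by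
  by_cases ha : a = 0
  · rw [ha]; exact h0
  · obtain ⟨n, rfl⟩ := D.hζ a ha
    clear ha
    induction n with
    | zero => rwa [pow_zero]
    | succ n ih => rw [pow_succ']; exact hs _ ih

theorem hdi (D : Dat3 x d t c ζ N B) (a : F) : d⁻¹ * x a * d = x (ζ⁻¹ * a) := by
  have := D.hd (ζ⁻¹ * a)
  rw [mul_inv_cancel_left₀ D.hζ0] at this
  rw [← this]; group

theorem de_comm (D : Dat3 x d t c ζ N B) (a : F) : Commute (x a) (d * (t⁻¹ * d * t)) := by
  refine D.ind (P := fun a => Commute (x a) (d * (t⁻¹ * d * t))) ?_ D.g5 ?_ a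
  · rw [D.x0]; exact Commute.one_left _
  · intro a ha
    have h1 : Commute d (d * (t⁻¹ * d * t)) := (Commute.refl d).mul_right D.g6
    rw [← D.hd]
    exact (h1.mul_left ha).mul_left h1.inv_left

theorem he' (D : Dat3 x d t c ζ N B) (a : F) : (t⁻¹ * d * t) * x a * (t⁻¹ * d * t)⁻¹ = x (ζ⁻¹ * a) := by
  have h1 := (D.de_comm a).eq
  rw [← D.hdi]
  generalize t⁻¹ * d * t = e at h1 ⊢
  have h2 : e * x a = d⁻¹ * x a * d * e := by
    calc e * x a = d⁻¹ * (d * e * x a) := by group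
      _ = d⁻¹ * (x a * (d * e)) := by rw [h1]
      _ = _ := by group
  rw [h2]; group

theorem hR (D : Dat3 x d t c ζ N B) (n : ℕ) : x (ζ ^ n) * t * x ((ζ ^ n)⁻¹) * t⁻¹ * x (ζ ^ n) =
    t * (t⁻¹ * d * t) ^ n * (d ^ n)⁻¹ := by
  induction n with
  | zero => simpa using D.g7
  | succ n ih =>
    have e1 : x (ζ ^ (n + 1)) = d * x (ζ ^ n) * d⁻¹ := by rw [D.hd, pow_succ']
    have e2 : x ((ζ ^ (n + 1))⁻¹) = (t⁻¹ * d * t) * x ((ζ ^ n)⁻¹) * (t⁻¹ * d * t)⁻¹ := by
      rw [D.he', pow_succ', mul_inv]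
    have e3 : t * (t⁻¹ * d * t) = d * t := by group
    have e4 : (t⁻¹ * d * t)⁻¹ * t⁻¹ = t⁻¹ * d⁻¹ := by group
    rw [e1, e2]
    calc d * x (ζ ^ n) * d⁻¹ * t * ((t⁻¹ * d * t) * x ((ζ ^ n)⁻¹) * (t⁻¹ * d * t)⁻¹) * t⁻¹ * (d * x (ζ ^ n) * d⁻¹)
        = d * x (ζ ^ n) * d⁻¹ * (t * (t⁻¹ * d * t)) * x ((ζ ^ n)⁻¹) * ((t⁻¹ * d * t)⁻¹ * t⁻¹) * d * x (ζ ^ n) * d⁻¹ := by
          simp only [mul_assoc]
      _ = d * (x (ζ ^ n) * t * x ((ζ ^ n)⁻¹) * t⁻¹ * x (ζ ^ n)) * d⁻¹ := by rw [e3, e4]; group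
      _ = (d * t) * (t⁻¹ * d * t) ^ n * (d ^ n)⁻¹ * d⁻¹ := by rw [ih]; group
      _ = t * ((t⁻¹ * d * t) * (t⁻¹ * d * t) ^ n) * ((d ^ n)⁻¹ * d⁻¹) := by rw [← e3]; simp only [mul_assoc]
      _ = _ := by rw [← pow_succ', ← _root_.mul_inv_rev, ← pow_succ']

theorem tt' (D : Dat3 x d t c ζ N B) : t * t = d ^ N * ((t⁻¹ * d * t) ^ N)⁻¹ := by
  have h1 := D.hR N
  rw [D.hζN] at h1
  have h2 : ((-1 : F))⁻¹ = -1 := by rw [inv_neg, inv_one]
  rw [h2, D.xneg] at h1
  have h3 : (x 1)⁻¹ * t * (x 1)⁻¹ * t⁻¹ * (x 1)⁻¹ = t⁻¹ := by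
    have := congrArg (fun g => g⁻¹) D.g7
    simp only [_root_.mul_inv_rev, inv_inv] at this
    refine Eq.trans ?_ this
    group
  rw [h3] at h1
  generalize (t⁻¹ * d * t) ^ N = E at h1 ⊢
  generalize d ^ N = Z at h1 ⊢
  calc t * t = t * (t⁻¹)⁻¹ := by rw [inv_inv]
    _ = t * (t * E * Z⁻¹)⁻¹ := by rw [h1]
    _ = t * Z * E⁻¹ * t⁻¹ := by group
    _ = t⁻¹ * (t * t) * Z * E⁻¹ * t⁻¹ := by group
    _ = _ := by
      have h4 : t * t * E = Z := by
        calc t * t * E = t * (t * E * Z⁻¹) * Z := by group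
          _ = Z := by rw [← h1]; group
      have h5 : t * t = Z * E⁻¹ := by rw [← h4]; group
      rw [← h5]
      have h6 : Z * E⁻¹ = t * t := h5.symm
      calc t⁻¹ * (t * t) * Z * E⁻¹ * t⁻¹ = t * (Z * E⁻¹) * t⁻¹ := by group
        _ = t * (t * t) * t⁻¹ := by rw [h6]
        _ = t * t := by group

theorem ttd (D : Dat3 x d t c ζ N B) : Commute (t * t) d := by
  rw [D.tt']
  exact ((Commute.refl d).pow_left N).mul_left (((D.g6.symm).pow_left N).inv_left)

theorem e_eq (D : Dat3 x d t c ζ N B) : t⁻¹ * d * t = t * d * t⁻¹ := by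
  have h := D.ttd.eq
  calc t⁻¹ * d * t = t⁻¹ * (d * (t * t)) * t⁻¹ := by group
    _ = t⁻¹ * (t * t * d) * t⁻¹ := by rw [h]
    _ = _ := by group

/-- the second torus element -/
theorem g6e (D : Dat3 x d t c ζ N B) : Commute d (cn t d) := by
  rw [cn_apply, ← D.e_eq]; exact D.g6

theorem Te (D : Dat3 x d t c ζ N B) : cn t (cn t d) = d := by
  rw [cn_apply, cn_apply, ← D.e_eq]; group

theorem hde (D : Dat3 x d t c ζ N B) (a : F) : cn d (x a) = x (ζ * a) := D.hd a

theorem hee (D : Dat3 x d t c ζ N B) (a : F) : cn (cn t d) (x a) = x (ζ⁻¹ * a) := by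
  rw [cn_apply, cn_apply, ← D.e_eq]; exact D.he' a

theorem Cd (D : Dat3 x d t c ζ N B) : cn c d = cn t d * d⁻¹ := D.hA

theorem CCC (D : Dat3 x d t c ζ N B) (g : G) : cn c (cn c (cn c g)) = g := by
  rw [cn_apply, cn_apply, cn_apply]
  calc c * (c * (c * g * c⁻¹) * c⁻¹) * c⁻¹ = (c * c * c) * g * (c * c * c)⁻¹ := by group
    _ = g := by rw [D.c3]; group

theorem cinv (D : Dat3 x d t c ζ N B) : c⁻¹ = c * c := by
  rw [inv_eq_iff_mul_eq_one, ← mul_assoc]; exact D.c3

theorem TCCT (D : Dat3 x d t c ζ N B) (g : G) : cn t (cn c (cn c (cn t g))) = cn c g := by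
  have h1 : t * (c * c) * t = c := by rw [← D.cinv]; exact D.tc
  simp only [cn_apply]
  calc t * (c * (c * (t * g * t⁻¹) * c⁻¹) * c⁻¹) * t⁻¹ = (t * (c * c) * t) * g * (t * (c * c) * t)⁻¹ := by group
    _ = _ := by rw [h1]

theorem cn_cn (a b g : G) : cn (cn a b) (cn a g) = cn a (cn b g) := by
  simp only [cn_apply]; group

/-- `C(Te)` -/
theorem CCd (D : Dat3 x d t c ζ N B) : cn c (cn c d) = (cn t d)⁻¹ := by
  have h1 : cn t (cn c d) = (cn c d)⁻¹ := by
    rw [D.Cd, map_mul, map_inv, D.Te, _root_.mul_inv_rev, inv_inv]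
  -- `T C d = C d⁻¹`
  have h2 : cn c (cn c (cn t (cn c d))) = d⁻¹ := by
    rw [h1, map_inv, map_inv, D.CCC]
  have h3 := congrArg (cn t) h2
  rw [D.TCCT, map_inv] at h3
  exact h3

theorem Ce (D : Dat3 x d t c ζ N B) : cn c (cn t d) = d⁻¹ := by
  have h1 : d = (cn c (cn t d))⁻¹ := by
    have h := congrArg (cn c) D.CCd
    rw [D.CCC, map_inv] at h
    exact h
  have h2 := congrArg (fun g => g⁻¹) h1
  simp only [inv_inv] at h2
  exact h2.symm

theorem CCe (D : Dat3 x d t c ζ N B) : cn c (cn c (cn t d)) = d * (cn t d)⁻¹ := by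
  rw [D.Ce, map_inv, D.Cd, _root_.mul_inv_rev, inv_inv]

theorem tt (D : Dat3 x d t c ζ N B) : t * t = d ^ N * ((cn t d) ^ N)⁻¹ := by
  have := D.tt'
  rw [D.e_eq] at this
  exact this

theorem actN_d (D : Dat3 x d t c ζ N B) (n : ℕ) (a : F) : cn (d ^ n) (x a) = x (ζ ^ n * a) := by
  induction n generalizing a with
  | zero => simp
  | succ n ih =>
    rw [pow_succ, cn_mul, D.hde, ih, ← mul_assoc, ← pow_succ]

theorem actN_e (D : Dat3 x d t c ζ N B) (n : ℕ) (a : F) : cn ((cn t d) ^ n) (x a) = x ((ζ⁻¹) ^ n * a) := by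
  induction n generalizing a with
  | zero => simp
  | succ n ih =>
    rw [pow_succ, cn_mul, D.hee, ih, ← mul_assoc, ← pow_succ]

theorem zN (D : Dat3 x d t c ζ N B) : (ζ⁻¹) ^ N = -1 := by
  rw [inv_pow, D.hζN, inv_neg, inv_one]

/-- conjugation by `t²` -/
theorem TT_x (D : Dat3 x d t c ζ N B) (a : F) : cn t (cn t (x a)) = x a := by
  rw [← cn_mul, D.tt, cn_mul]
  have h1 : cn ((cn t d) ^ N) (x (-a)) = x a := by rw [D.actN_e, D.zN]; congr 1; ring
  have h2 : cn (((cn t d) ^ N)⁻¹) (x a) = x (-a) := by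
    rw [← h1, cn_inv_cn]
  rw [h2, D.actN_d, D.hζN]; congr 1; ring

theorem TT_gen (D : Dat3 x d t c ζ N B) (g : G) : cn t (cn t g) = cn (t * t) g := by
  rw [cn_mul]

theorem CCtt (D : Dat3 x d t c ζ N B) : cn c (cn c (t * t)) = (d ^ N)⁻¹ := by
  have hcm : Commute d (cn t d)⁻¹ := D.g6e.inv_right
  rw [D.tt, map_mul, map_mul, map_inv, map_inv, map_pow, map_pow, map_pow, map_pow, D.CCd, D.CCe, hcm.mul_pow,
    _root_.mul_inv_rev, ← mul_assoc, mul_inv_cancel, one_mul]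

theorem Ctt (D : Dat3 x d t c ζ N B) : cn c (t * t) = (cn t d) ^ N := by
  have h1 := congrArg (cn c) D.CCtt
  rw [D.CCC, map_inv, map_pow] at h1
  have h2 := congrArg (cn c) h1
  rw [map_inv, map_pow, D.CCd, inv_pow, inv_inv] at h2
  exact h2

theorem TT_C (D : Dat3 x d t c ζ N B) (a : F) : cn t (cn t (cn c (x a))) = cn c (x (-a)) := by
  rw [D.TT_gen]
  have h1 : cn (t * t) (cn c (x a)) = cn c (cn (cn c (cn c (t * t))) (x a)) := by
    have h2 := cn_cn c (cn c (cn c (t * t))) (x a)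
    rw [D.CCC] at h2
    exact h2
  rw [h1, D.CCtt]
  congr 1
  have h3 : cn (d ^ N) (x (-a)) = x a := by rw [D.actN_d, D.hζN]; congr 1; ring
  rw [← h3, cn_inv_cn]

theorem TT_CC (D : Dat3 x d t c ζ N B) (a : F) : cn t (cn t (cn c (cn c (x a)))) = cn c (cn c (x (-a))) := by
  rw [D.TT_gen]
  have h1 : cn (t * t) (cn c (cn c (x a))) = cn c (cn c (cn (cn c (t * t)) (x a))) := by
    rw [← cn_cn c (cn c (t * t)), ← cn_cn c (cn c (cn c (t * t))), D.CCC]
  rw [h1, D.Ctt, D.actN_e, D.zN]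
  congr 3
  ring

/-! root elements -/

def x21 (x : F → G) (t : G) (a : F) : G := cn t (x (-a))
def x23 (x : F → G) (c : G) (a : F) : G := cn c (x a)
def x31 (x : F → G) (c : G) (a : F) : G := cn c (cn c (x a))
def x32 (x : F → G) (t c : G) (a : F) : G := cn c (cn t (x (-a)))
def x13 (x : F → G) (t c : G) (a : F) : G := cn c (cn c (cn t (x (-a))))

theorem T12 (D : Dat3 x d t c ζ N B) (a : F) : cn t (x a) = x21 x t (-a) := by
  unfold x21; rw [neg_neg]

theorem T21 (D : Dat3 x d t c ζ N B) (a : F) : cn t (x21 x t a) = x (-a) := by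
  unfold x21; rw [D.TT_x]

theorem T23 (D : Dat3 x d t c ζ N B) (a : F) : cn t (x23 x c a) = x13 x t c a := by
  unfold x23 x13
  apply (cn t).injective
  rw [D.TT_C, D.TCCT]

theorem T13 (D : Dat3 x d t c ζ N B) (a : F) : cn t (x13 x t c a) = x23 x c (-a) := by
  rw [← D.T23]
  exact D.TT_C a

theorem T31 (D : Dat3 x d t c ζ N B) (a : F) : cn t (x31 x c a) = x32 x t c (-a) := by
  unfold x31 x32
  rw [neg_neg, ← D.TCCT (cn t (x a)), D.TT_x]

theorem T32 (D : Dat3 x d t c ζ N B) (a : F) : cn t (x32 x t c a) = x31 x c a := by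
  have h1 := D.T31 (-a)
  rw [neg_neg] at h1
  rw [← h1]
  have h2 := D.TT_CC (-a)
  rw [neg_neg] at h2
  exact h2

theorem C12 (D : Dat3 x d t c ζ N B) (a : F) : cn c (x a) = x23 x c a := rfl
theorem C23 (D : Dat3 x d t c ζ N B) (a : F) : cn c (x23 x c a) = x31 x c a := rfl
theorem C31 (D : Dat3 x d t c ζ N B) (a : F) : cn c (x31 x c a) = x a := D.CCC _
theorem C21 (D : Dat3 x d t c ζ N B) (a : F) : cn c (x21 x t a) = x32 x t c a := rfl
theorem C32 (D : Dat3 x d t c ζ N B) (a : F) : cn c (x32 x t c a) = x13 x t c a := rfl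
theorem C13 (D : Dat3 x d t c ζ N B) (a : F) : cn c (x13 x t c a) = x21 x t a := D.CCC _

/-! torus action -/

theorem hdi' (D : Dat3 x d t c ζ N B) (a : F) : cn d⁻¹ (x a) = x (ζ⁻¹ * a) := by
  rw [cn_apply, inv_inv]; exact D.hdi a

theorem hei (D : Dat3 x d t c ζ N B) (a : F) : cn (cn t d)⁻¹ (x a) = x (ζ * a) := by
  have h1 := D.hee (ζ * a)
  rw [inv_mul_cancel_left₀ D.hζ0] at h1
  rw [← h1, cn_inv_cn]

theorem conj_C (D : Dat3 x d t c ζ N B) (w g : G) : cn w (cn c g) = cn c (cn (cn c (cn c w)) g) := by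
  have h2 := cn_cn c (cn c (cn c w)) g
  rw [D.CCC] at h2
  exact h2

theorem conj_CC (D : Dat3 x d t c ζ N B) (w g : G) : cn w (cn c (cn c g)) = cn c (cn c (cn (cn c w) g)) := by
  rw [D.conj_C, D.conj_C, D.CCC]

/-- conjugation by `t` for torus elements -/
theorem conj_T (D : Dat3 x d t c ζ N B) (w w' g : G) (h : cn t w' = w) : cn w (cn t g) = cn t (cn w' g) := by
  rw [← h, cn_cn]

theorem d23 (D : Dat3 x d t c ζ N B) (a : F) : cn d (x23 x c a) = x23 x c (ζ * a) := by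
  unfold x23
  rw [D.conj_C, D.CCd, D.hei]

theorem d13 (D : Dat3 x d t c ζ N B) (a : F) : cn d (x13 x t c a) = x13 x t c (ζ ^ 2 * a) := by
  unfold x13
  rw [D.conj_CC, D.Cd, D.conj_T (cn t d * d⁻¹) (d * (cn t d)⁻¹) _ (by rw [map_mul, map_inv, D.Te]),
    cn_mul, D.hei, D.hde]
  congr 4
  ring

theorem d32 (D : Dat3 x d t c ζ N B) (a : F) : cn d (x32 x t c a) = x32 x t c (ζ⁻¹ * a) := by
  unfold x32
  rw [D.conj_C, D.CCd, D.conj_T (cn t d)⁻¹ d⁻¹ _ (by rw [map_inv]), D.hdi']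
  congr 3
  ring

theorem e23 (D : Dat3 x d t c ζ N B) (a : F) : cn (cn t d) (x23 x c a) = x23 x c (ζ ^ 2 * a) := by
  unfold x23
  rw [D.conj_C, D.CCe, cn_mul, D.hei, D.hde]
  congr 2
  ring

theorem e13 (D : Dat3 x d t c ζ N B) (a : F) : cn (cn t d) (x13 x t c a) = x13 x t c (ζ * a) := by
  unfold x13
  rw [D.conj_CC, D.Ce, D.conj_T d⁻¹ (cn t d)⁻¹ _ (by rw [map_inv, D.Te]), D.hei]
  congr 4
  ring

theorem e32 (D : Dat3 x d t c ζ N B) (a : F) : cn (cn t d) (x32 x t c a) = x32 x t c ((ζ⁻¹) ^ 2 * a) := by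
  unfold x32
  rw [D.conj_C, D.CCe, D.conj_T (d * (cn t d)⁻¹) (cn t d * d⁻¹) _ (by rw [map_mul, map_inv, D.Te]),
    cn_mul, D.hdi', D.hee]
  congr 3
  ring

theorem cn_comm (w g h : G) (H : Commute g h) : Commute (cn w g) (cn w h) := by
  change _ * _ = _ * _
  rw [← map_mul, ← map_mul, H.eq]

/-- the central torus element -/
theorem z12 (D : Dat3 x d t c ζ N B) (a : F) : cn (d * cn t d) (x a) = x a := by
  rw [cn_mul, D.hee, D.hde, mul_inv_cancel_left₀ D.hζ0]

theorem z23 (D : Dat3 x d t c ζ N B) (a : F) : cn (d * cn t d) (x23 x c a) = x23 x c (ζ ^ 3 * a) := by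
  rw [cn_mul, D.e23, D.d23]; congr 1; ring

theorem z13 (D : Dat3 x d t c ζ N B) (a : F) : cn (d * cn t d) (x13 x t c a) = x13 x t c (ζ ^ 3 * a) := by
  rw [cn_mul, D.e13, D.d13]; congr 1; ring

theorem z32 (D : Dat3 x d t c ζ N B) (a : F) : cn (d * cn t d) (x32 x t c a) = x32 x t c ((ζ⁻¹) ^ 3 * a) := by
  rw [cn_mul, D.e32, D.d32]; congr 1; ring

theorem add13 (D : Dat3 x d t c ζ N B) (a b : F) : x13 x t c (a + b) = x13 x t c a * x13 x t c b := by
  unfold x13; rw [← map_mul, ← map_mul, ← map_mul, ← D.hadd]; congr 4; ring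

theorem add32 (D : Dat3 x d t c ζ N B) (a b : F) : x32 x t c (a + b) = x32 x t c a * x32 x t c b := by
  unfold x32; rw [← map_mul, ← map_mul, ← D.hadd]; congr 3; ring

theorem add23 (D : Dat3 x d t c ζ N B) (a b : F) : x23 x c (a + b) = x23 x c a * x23 x c b := by
  unfold x23; rw [← map_mul, ← D.hadd]

theorem add31 (D : Dat3 x d t c ζ N B) (a b : F) : x31 x c (a + b) = x31 x c a * x31 x c b := by
  unfold x31; rw [← map_mul, ← map_mul, ← D.hadd]

theorem add21 (D : Dat3 x d t c ζ N B) (a b : F) : x21 x t (a + b) = x21 x t a * x21 x t b := by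
  unfold x21; rw [← map_mul, ← D.hadd]; congr 2; ring

theorem neg_of_add {y : F → G} (h : ∀ a b, y (a + b) = y a * y b) (a : F) : y (-a) = (y a)⁻¹ := by
  have h0 : y 0 = 1 := by
    have := h 0 0
    rw [add_zero] at this
    exact (mul_eq_left.1 this.symm)
  apply eq_inv_of_mul_eq_one_left
  rw [← h, neg_add_cancel, h0]

theorem zero_of_add {y : F → G} (h : ∀ a b, y (a + b) = y a * y b) : y 0 = 1 := by
  have := h 0 0
  rw [add_zero] at this
  exact (mul_eq_left.1 this.symm)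

/-- the commuting relations for `x 1` -/
theorem span_comm (D : Dat3 x d t c ζ N B) {y : F → G} (h : ∀ a b, y (a + b) = y a * y b)
    (hz : ∀ b, Commute (x 1) (y b) → Commute (x 1) (y (ζ ^ 3 * b))) (hb : ∀ b ∈ B, Commute (x 1) (y b)) (b : F) :
    Commute (x 1) (y b) := by
  let S : AddSubgroup F :=
    { carrier := {b | Commute (x 1) (y b)}
      add_mem' := fun {a b} ha hb => by
        change Commute (x 1) (y (a + b))
        rw [h]; exact Commute.mul_right ha hb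
      zero_mem' := by
        change Commute (x 1) (y 0)
        rw [zero_of_add h]; exact Commute.one_right _
      neg_mem' := fun {a} ha => by
        change Commute (x 1) (y (-a))
        rw [neg_of_add h]; exact Commute.inv_right ha }
  have hS := D.hB S hb hz
  have : b ∈ S := by rw [hS]; trivial
  exact this

theorem R1 (D : Dat3 x d t c ζ N B) (a b : F) : Commute (x a) (x13 x t c b) := by
  have h1 : ∀ b, Commute (x 1) (x13 x t c b) := by
    apply D.span_comm D.add13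
    · intro b hb
      have := cn_comm (d * cn t d) _ _ hb
      rwa [D.z12, D.z13] at this
    · exact D.s1
  refine D.ind (P := fun a => ∀ b, Commute (x a) (x13 x t c b)) ?_ h1 ?_ a b
  · intro b; rw [D.x0]; exact Commute.one_left _
  · intro a ha b
    have := cn_comm d _ _ (ha ((ζ ^ 2)⁻¹ * b))
    rwa [D.hde, D.d13, mul_inv_cancel_left₀ (pow_ne_zero 2 D.hζ0)] at this

theorem R2 (D : Dat3 x d t c ζ N B) (a b : F) : Commute (x a) (x32 x t c b) := by
  have h1 : ∀ b, Commute (x 1) (x32 x t c b) := by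
    apply D.span_comm D.add32
    · intro b hb
      have e1 : cn (d * cn t d)⁻¹ (x 1) = x 1 := by
        conv_lhs => rw [← D.z12 1]
        rw [cn_inv_cn]
      have e2 : cn (d * cn t d)⁻¹ (x32 x t c b) = x32 x t c (ζ ^ 3 * b) := by
        have h3 : cn (d * cn t d) (x32 x t c (ζ ^ 3 * b)) = x32 x t c b := by
          rw [D.z32]; congr 1
          rw [← mul_assoc, ← mul_pow, inv_mul_cancel₀ D.hζ0, one_pow, one_mul]
        rw [← h3, cn_inv_cn]
      have := cn_comm (d * cn t d)⁻¹ _ _ hb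
      rwa [e1, e2] at this
    · exact D.s2
  refine D.ind (P := fun a => ∀ b, Commute (x a) (x32 x t c b)) ?_ h1 ?_ a b
  · intro b; rw [D.x0]; exact Commute.one_left _
  · intro a ha b
    have := cn_comm d _ _ (ha (ζ * b))
    rwa [D.hde, D.d32, inv_mul_cancel_left₀ D.hζ0] at this

theorem R2' (D : Dat3 x d t c ζ N B) (a b : F) : Commute (x23 x c a) (x13 x t c b) :=
  cn_comm c _ _ (D.R2 a b)

theorem R3 (D : Dat3 x d t c ζ N B) (a b : F) : x a * x23 x c b = x13 x t c (a * b) * x23 x c b * x a := by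
  have h1 : ∀ b, x 1 * x23 x c b = x13 x t c b * x23 x c b * x 1 := by
    have key : ∀ b b', x 1 * x23 x c b = x13 x t c b * x23 x c b * x 1 → x 1 * x23 x c b' = x13 x t c b' * x23 x c b' * x 1 →
        x 1 * x23 x c (b + b') = x13 x t c (b + b') * x23 x c (b + b') * x 1 := by
      intro b b' h h'
      rw [D.add23, D.add13]
      calc x 1 * (x23 x c b * x23 x c b') = (x 1 * x23 x c b) * x23 x c b' := by group
        _ = x13 x t c b * x23 x c b * (x 1 * x23 x c b') := by rw [h]; group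
        _ = x13 x t c b * (x23 x c b * x13 x t c b') * x23 x c b' * x 1 := by rw [h']; group
        _ = x13 x t c b * (x13 x t c b' * x23 x c b) * x23 x c b' * x 1 := by rw [(D.R2' b b').eq]
        _ = _ := by group
    let S : AddSubgroup F :=
      { carrier := {b | x 1 * x23 x c b = x13 x t c b * x23 x c b * x 1}
        add_mem' := fun {a b} ha hb => key a b ha hb
        zero_mem' := by
          change x 1 * x23 x c 0 = x13 x t c 0 * x23 x c 0 * x 1
          rw [zero_of_add D.add23, zero_of_add D.add13]; simp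
        neg_mem' := fun {a} ha => by
          change x 1 * x23 x c (-a) = x13 x t c (-a) * x23 x c (-a) * x 1
          have ha' : x 1 * x23 x c a = x13 x t c a * x23 x c a * x 1 := ha
          rw [neg_of_add D.add23, neg_of_add D.add13]
          have h2 := (D.R2' a a).eq
          have h3 : x 1 * (x23 x c a)⁻¹ = (x23 x c a)⁻¹ * (x13 x t c a)⁻¹ * x 1 := by
            have h4 : x13 x t c a * x23 x c a * (x 1 * (x23 x c a)⁻¹) = x 1 := by
              rw [← mul_assoc, ← ha']; group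
            calc x 1 * (x23 x c a)⁻¹ = (x13 x t c a * x23 x c a)⁻¹ * (x13 x t c a * x23 x c a * (x 1 * (x23 x c a)⁻¹)) := by group
              _ = _ := by rw [h4]; group
          rw [h3]
          congr 1
          have := congrArg (fun g => g⁻¹) h2
          simp only [_root_.mul_inv_rev] at this
          exact this.symm }
    have hS := D.hB S (fun b hb => D.s3 b hb) (by
      intro b hb
      have hb' : x 1 * x23 x c b = x13 x t c b * x23 x c b * x 1 := hb
      have := congrArg (cn (d * cn t d)) hb'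
      simp only [map_mul (cn (d * cn t d)), D.z12, D.z13, D.z23] at this
      exact this)
    intro b
    have : b ∈ S := by rw [hS]; trivial
    exact this
  refine D.ind (P := fun a => ∀ b, x a * x23 x c b = x13 x t c (a * b) * x23 x c b * x a) ?_ ?_ ?_ a b
  · intro b; rw [D.x0, zero_mul, zero_of_add D.add13]; simp
  · intro b; rw [one_mul]; exact h1 b
  · intro a ha b
    have h2 := congrArg (cn d) (ha (ζ⁻¹ * b))
    simp only [map_mul (cn d), D.hde, D.d13, D.d23] at h2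
    rw [mul_inv_cancel_left₀ D.hζ0] at h2
    have e : ζ ^ 2 * (a * (ζ⁻¹ * b)) = ζ * a * b := by
      have := D.hζ0
      field_simp
    rwa [e] at h2

end Dat3

end der

end CfsgLib.Slthree
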