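import Cfsg.Agent.LibSlthree1

/-!
The Steinberg relations of `SL₃`, and generation.
-/

set_option autoImplicit false
set_option linter.all false

namespace CfsgLib.Slthree

section der

variable {G : Type*} [Group G] {F : Type*} [Field F]

/-- root elements by indices -/
def rt (x : F → G) (t c : G) : Fin 3 → Fin 3 → F → G
  | 0, 1 => x
  | 1, 0 => Dat3.x21 x t
  | 1, 2 => Dat3.x23 x c
  | 2, 0 => Dat3.x31 x c
  | 2, 1 => Dat3.x32 x t c
  | 0, 2 => Dat3.x13 x t c
  | _, _ => fun _ => 1

variable {x : F → G} {d t c : G} {ζ : F} {N : ℕ} {B : Set F}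

namespace Dat3

theorem rt_add (D : Dat3 x d t c ζ N B) (i j : Fin 3) (h : i ≠ j) (a b : F) :
    rt x t c i j (a + b) = rt x t c i j a * rt x t c i j b := by
  fin_cases i <;> fin_cases j <;> first
    | exact absurd rfl h
    | exact D.hadd a b
    | exact D.add21 a b
    | exact D.add23 a b
    | exact D.add31 a b
    | exact D.add32 a b
    | exact D.add13 a b

theorem add_comm' {y : F → G} (h : ∀ a b, y (a + b) = y a * y b) (a b : F) : Commute (y a) (y b) := by
  change y a * y b = y b * y a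
  rw [← h, ← h, add_comm]

theorem Q1 (D : Dat3 x d t c ζ N B) (a b : F) : Commute (x23 x c a) (x21 x t b) := by
  have := cn_comm c _ _ (D.R1 a b)
  rwa [D.C12, D.C13] at this

theorem Q2 (D : Dat3 x d t c ζ N B) (a b : F) : Commute (x31 x c a) (x32 x t c b) := by
  have := cn_comm c _ _ (D.Q1 a b)
  rwa [D.C23, D.C21] at this

theorem Q3 (D : Dat3 x d t c ζ N B) (a b : F) : Commute (x31 x c a) (x21 x t b) := by
  have := cn_comm c _ _ (D.R2' a b)
  rwa [D.C23, D.C13] at this

theorem rt_comm (D : Dat3 x d t c ζ N B) (i j k l : Fin 3) (h : i ≠ j) (h' : k ≠ l) (h1 : i ≠ l) (h2 : j ≠ k) (a b : F) :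
    Commute (rt x t c i j a) (rt x t c k l b) := by
  fin_cases i <;> fin_cases j <;> first
    | exact absurd rfl h
    | (fin_cases k <;> fin_cases l <;> first
        | exact absurd rfl h'
        | exact absurd rfl h1
        | exact absurd rfl h2
        | exact D.xcomm a b
        | exact add_comm' D.add21 a b
        | exact add_comm' D.add23 a b
        | exact add_comm' D.add31 a b
        | exact add_comm' D.add32 a b
        | exact add_comm' D.add13 a b
        | exact D.R1 a b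
        | exact (D.R1 b a).symm
        | exact D.R2 a b
        | exact (D.R2 b a).symm
        | exact D.R2' a b
        | exact (D.R2' b a).symm
        | exact D.Q1 a b
        | exact (D.Q1 b a).symm
        | exact D.Q2 a b
        | exact (D.Q2 b a).symm
        | exact D.Q3 a b
        | exact (D.Q3 b a).symm)

theorem S1 (D : Dat3 x d t c ζ N B) (a b : F) : x23 x c a * x31 x c b = x21 x t (a * b) * x31 x c b * x23 x c a := by
  have h := congrArg (cn c) (D.R3 a b)
  simpa only [map_mul (cn c), D.C12, D.C23, D.C13] using h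

theorem S2 (D : Dat3 x d t c ζ N B) (a b : F) : x31 x c a * x b = x32 x t c (a * b) * x b * x31 x c a := by
  have h := congrArg (cn c) (D.S1 a b)
  simpa only [map_mul (cn c), D.C31, D.C23, D.C21] using h

theorem S3 (D : Dat3 x d t c ζ N B) (a b : F) : x21 x t a * x13 x t c b = x23 x c (a * b) * x13 x t c b * x21 x t a := by
  have h := congrArg (cn t) (D.R3 (-a) b)
  simp only [map_mul (cn t), D.T12, D.T23, D.T13, neg_neg] at h
  rw [neg_mul, neg_neg] at h
  exact h

theorem S4 (D : Dat3 x d t c ζ N B) (a b : F) : x32 x t c a * x21 x t b = x31 x c (a * b) * x21 x t b * x32 x t c a := by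
  have h := congrArg (cn c) (D.S3 a b)
  simpa only [map_mul (cn c), D.C21, D.C13, D.C23] using h

theorem S5 (D : Dat3 x d t c ζ N B) (a b : F) : x13 x t c a * x32 x t c b = x (a * b) * x32 x t c b * x13 x t c a := by
  have h := congrArg (cn c) (D.S4 a b)
  simpa only [map_mul (cn c), D.C21, D.C32, D.C31] using h

theorem rt_mul (D : Dat3 x d t c ζ N B) (i j l : Fin 3) (h : i ≠ j) (h' : j ≠ l) (h1 : i ≠ l) (a b : F) :
    rt x t c i j a * rt x t c j l b = rt x t c i l (a * b) * rt x t c j l b * rt x t c i j a := by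
  fin_cases i <;> fin_cases j <;> first
    | exact absurd rfl h
    | (fin_cases l <;> first
        | exact absurd rfl h'
        | exact absurd rfl h1
        | exact D.R3 a b
        | exact D.S1 a b
        | exact D.S2 a b
        | exact D.S3 a b
        | exact D.S4 a b
        | exact D.S5 a b)

end Dat3

/-- Steinberg's relations -/
abbrev Rt := {ij : Fin 3 × Fin 3 // ij.1 ≠ ij.2}

abbrev StR (F : Type*) [Field F] : Set (FreeGroup (Rt × F)) :=
  ({g : FreeGroup ({ij : Fin 3 × Fin 3 // ij.1 ≠ ij.2} × F) | ∃ (a : {ij : Fin 3 × Fin 3 // ij.1 ≠ ij.2}) (t u : F),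
            g = FreeGroup.of (a, t) * FreeGroup.of (a, u) * (FreeGroup.of (a, t + u))⁻¹} ∪
          {g | ∃ (a b : {ij : Fin 3 × Fin 3 // ij.1 ≠ ij.2}) (t u : F), a.1.1 ≠ b.1.2 ∧ a.1.2 ≠ b.1.1 ∧
            g = FreeGroup.of (a, t) * FreeGroup.of (b, u) * (FreeGroup.of (a, t))⁻¹ * (FreeGroup.of (b, u))⁻¹} ∪
          {g | ∃ (a b : {ij : Fin 3 × Fin 3 // ij.1 ≠ ij.2}) (h : a.1.1 ≠ b.1.2) (t u : F), a.1.2 = b.1.1 ∧
            g = FreeGroup.of (a, t) * FreeGroup.of (b, u) * (FreeGroup.of (a, t))⁻¹ * (FreeGroup.of (b, u))⁻¹ *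
              (FreeGroup.of (⟨(a.1.1, b.1.2), h⟩, t * u))⁻¹})

theorem Dat3.exSigma (D : Dat3 x d t c ζ N B) : ∃ σ : PresentedGroup (StR F) →* G,
    ∀ (a : Rt) (s : F), σ (PresentedGroup.of (a, s)) = rt x t c a.1.1 a.1.2 s := by
  have h : ∀ r ∈ StR F, FreeGroup.lift (fun as : Rt × F => rt x t c as.1.1.1 as.1.1.2 as.2) r = 1 := by
    rintro r ((⟨a, s, u, rfl⟩ | ⟨a, b, s, u, h1, h2, rfl⟩) | ⟨a, b, h1, s, u, h2, rfl⟩)
    · simp only [map_mul, map_inv, FreeGroup.lift_apply_of]
      rw [mul_inv_eq_one]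
      exact (D.rt_add _ _ a.2 s u).symm
    · simp only [map_mul, map_inv, FreeGroup.lift_apply_of]
      rw [mul_inv_eq_one, mul_inv_eq_iff_eq_mul]
      exact D.rt_comm _ _ _ _ a.2 b.2 h1 h2 s u
    · simp only [map_mul, map_inv, FreeGroup.lift_apply_of]
      obtain ⟨⟨i, j⟩, hij⟩ := a
      obtain ⟨⟨k, l⟩, hkl⟩ := b
      simp only at h1 h2 hij hkl ⊢
      subst h2
      have h3 := D.rt_mul i j l hij hkl h1 s u
      rw [h3]; group
  exact ⟨PresentedGroup.toGroup h, fun a s => PresentedGroup.toGroup.of h⟩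

namespace Dat3

theorem gen_rt (D : Dat3 x d t c ζ N B) (K : Subgroup G) (hK : K = Subgroup.closure {g | ∃ (i j : Fin 3) (a : F), i ≠ j ∧ g = rt x t c i j a}) :
    x 1 ∈ K ∧ d ∈ K ∧ t ∈ K ∧ c ∈ K := by
  have hr : ∀ (i j : Fin 3) (a : F), i ≠ j → rt x t c i j a ∈ K := by
    intro i j a h
    rw [hK]
    exact Subgroup.subset_closure ⟨i, j, a, h, rfl⟩
  have hx : ∀ a, x a ∈ K := fun a => hr 0 1 a (by decide)
  have h21 : ∀ a, x21 x t a ∈ K := fun a => hr 1 0 a (by decide)
  have hc : ∀ g ∈ K, cn c g ∈ K := by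
    intro g hg
    rw [hK] at hg
    induction hg using Subgroup.closure_induction with
    | mem g hg =>
      obtain ⟨i, j, a, h, rfl⟩ := hg
      fin_cases i <;> fin_cases j <;> first
        | exact absurd rfl h
        | (change cn c (x a) ∈ K; rw [D.C12]; exact hr 1 2 a (by decide))
        | (change cn c (x23 x c a) ∈ K; rw [D.C23]; exact hr 2 0 a (by decide))
        | (change cn c (x31 x c a) ∈ K; rw [D.C31]; exact hr 0 1 a (by decide))
        | (change cn c (x21 x t a) ∈ K; rw [D.C21]; exact hr 2 1 a (by decide))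
        | (change cn c (x32 x t c a) ∈ K; rw [D.C32]; exact hr 0 2 a (by decide))
        | (change cn c (x13 x t c a) ∈ K; rw [D.C13]; exact hr 1 0 a (by decide))
    | one => rw [map_one]; exact K.one_mem
    | mul g h _ _ h1 h2 => rw [map_mul]; exact K.mul_mem h1 h2
    | inv g _ h1 => rw [map_inv]; exact K.inv_mem h1
  have ht : t ∈ K := by
    have e : t = x 1 * x21 x t (-1) * x 1 := by
      unfold x21
      rw [neg_neg, cn_apply]
      conv_lhs => rw [← D.g7]
      group
    rw [e]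
    exact K.mul_mem (K.mul_mem (hx _) (h21 _)) (hx _)
  have hed : cn c d ∈ K := by
    have e := D.hR 1
    rw [pow_one, pow_one, pow_one] at e
    have e2 : cn c d = t⁻¹ * (x ζ * cn t (x ζ⁻¹) * x ζ) := by
      have e4 : x ζ * cn t (x ζ⁻¹) * x ζ = x ζ * t * x ζ⁻¹ * t⁻¹ * x ζ := by
        rw [cn_apply]; group
      rw [D.Cd, cn_apply, ← D.e_eq, e4, e]; group
    rw [e2, D.T12]
    exact K.mul_mem (K.inv_mem ht) (K.mul_mem (K.mul_mem (hx _) (h21 _)) (hx _))
  have hd : d ∈ K := by
    have := hc _ (hc _ hed)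
    rwa [D.CCC] at this
  have hcc : c ∈ K := by
    have h1 : c * c = t * cn c (cn c t) := by
      have e1 : c⁻¹ * t = t⁻¹ * c := by
        have := D.tc
        calc c⁻¹ * t = t⁻¹ * (t * c⁻¹ * t) := by group
          _ = _ := by rw [this]
      have e2 : cn c (cn c t) = c⁻¹ * t * c := by
        rw [← cn_mul, ← D.cinv, cn_apply, inv_inv]
      rw [e2, e1]; group
    have h2 : c * c ∈ K := by
      rw [h1]; exact K.mul_mem ht (hc _ (hc _ ht))
    have h3 : c = (c * c) * (c * c) := by
      calc c = (c * c * c) * c := by rw [D.c3, one_mul]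
        _ = _ := by group
    rw [h3]; exact K.mul_mem h2 h2
  exact ⟨hx 1, hd, ht, hcc⟩

theorem sigma_surj (D : Dat3 x d t c ζ N B) (hgen : Subgroup.closure ({x 1, d, t, c} : Set G) = ⊤)
    (σ : PresentedGroup (StR F) →* G) (hσ : ∀ (a : Rt) (s : F), σ (PresentedGroup.of (a, s)) = rt x t c a.1.1 a.1.2 s) :
    Function.Surjective σ := by
  rw [← MonoidHom.range_eq_top, eq_top_iff]
  obtain ⟨h1, h2, h3, h4⟩ := D.gen_rt _ rfl
  have hle : Subgroup.closure {g | ∃ (i j : Fin 3) (a : F), i ≠ j ∧ g = rt x t c i j a} ≤ σ.range := by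
    rw [Subgroup.closure_le]
    rintro _ ⟨i, j, a, h, rfl⟩
    exact ⟨PresentedGroup.of (⟨(i, j), h⟩, a), hσ _ _⟩
  refine le_trans ?_ hle
  rw [← hgen, Subgroup.closure_le]
  rintro g (rfl | rfl | rfl | rfl)
  · exact h1
  · exact h2
  · exact h3
  · exact h4

end Dat3

end der

end CfsgLib.Slthree
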