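import Cfsg.Agent.LibSlthree2

/-!
Matrices for the presentation of `SL₃(q)`.
-/

set_option autoImplicit false
set_option linter.all false

namespace CfsgLib.Slthree

open Dat3 (cn cn_apply x21 x23 x31 x32 x13)

section mat

variable {F : Type*} [Field F]

abbrev SL3 (F : Type*) [Field F] := Matrix.SpecialLinearGroup (Fin 3) F

def M12 (a : F) : SL3 F := ⟨!![1, a, 0; 0, 1, 0; 0, 0, 1], by simp [Matrix.det_fin_three]⟩
def M21 (a : F) : SL3 F := ⟨!![1, 0, 0; a, 1, 0; 0, 0, 1], by simp [Matrix.det_fin_three]⟩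
def M23 (a : F) : SL3 F := ⟨!![1, 0, 0; 0, 1, a; 0, 0, 1], by simp [Matrix.det_fin_three]⟩
def M32 (a : F) : SL3 F := ⟨!![1, 0, 0; 0, 1, 0; 0, a, 1], by simp [Matrix.det_fin_three]⟩
def M31 (a : F) : SL3 F := ⟨!![1, 0, 0; 0, 1, 0; a, 0, 1], by simp [Matrix.det_fin_three]⟩
def M13 (a : F) : SL3 F := ⟨!![1, 0, a; 0, 1, 0; 0, 0, 1], by simp [Matrix.det_fin_three]⟩
def MT (F : Type*) [Field F] : SL3 F := ⟨!![0, 1, 0; -1, 0, 0; 0, 0, 1], by simp [Matrix.det_fin_three]⟩
def MC (F : Type*) [Field F] : SL3 F := ⟨!![0, 0, 1; 1, 0, 0; 0, 1, 0], by simp [Matrix.det_fin_three]⟩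
def MD (ζ : F) (hζ : ζ ≠ 0) : SL3 F := ⟨!![ζ, 0, 0; 0, 1, 0; 0, 0, ζ⁻¹], by simp [Matrix.det_fin_three, hζ]⟩
def ME (ζ : F) (hζ : ζ ≠ 0) : SL3 F := ⟨!![1, 0, 0; 0, ζ, 0; 0, 0, ζ⁻¹], by simp [Matrix.det_fin_three, hζ]⟩

theorem s_ext {A B : SL3 F} (h : A.1 = B.1) : A = B := Subtype.ext h

theorem m_mul (A B : SL3 F) : (A * B).1 = A.1 * B.1 := rfl

theorem M12_add (a b : F) : M12 (a + b) = M12 a * M12 b := by
  apply s_ext
  rw [m_mul]
  simp only [M12]
  ext i j
  fin_cases i <;> fin_cases j <;> simp [Matrix.mul_apply, Fin.sum_univ_three, add_comm]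

theorem M12_zero : M12 (0 : F) = 1 := by
  have := M12_add (0 : F) 0
  rw [add_zero] at this
  exact (mul_eq_left.1 this.symm)

theorem DM12 (ζ : F) (hζ : ζ ≠ 0) (a : F) : cn (MD ζ hζ) (M12 a) = M12 (ζ * a) := by
  rw [cn_apply, mul_inv_eq_iff_eq_mul]
  apply s_ext
  simp only [m_mul]; simp only [M12, MD]
  ext i j
  fin_cases i <;> fin_cases j <;> simp [Matrix.mul_apply, Fin.sum_univ_three]

theorem TM12 (a : F) : cn (MT F) (M12 a) = M21 (-a) := by
  rw [cn_apply, mul_inv_eq_iff_eq_mul]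
  apply s_ext
  simp only [m_mul]; simp only [M12, MT, M21]
  ext i j
  fin_cases i <;> fin_cases j <;> simp [Matrix.mul_apply, Fin.sum_univ_three]

theorem CM12 (a : F) : cn (MC F) (M12 a) = M23 a := by
  rw [cn_apply, mul_inv_eq_iff_eq_mul]
  apply s_ext
  simp only [m_mul]; simp only [M12, MC, M23]
  ext i j
  fin_cases i <;> fin_cases j <;> simp [Matrix.mul_apply, Fin.sum_univ_three]

theorem CM23 (a : F) : cn (MC F) (M23 a) = M31 a := by
  rw [cn_apply, mul_inv_eq_iff_eq_mul]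
  apply s_ext
  simp only [m_mul]; simp only [M31, MC, M23]
  ext i j
  fin_cases i <;> fin_cases j <;> simp [Matrix.mul_apply, Fin.sum_univ_three]

theorem CM21 (a : F) : cn (MC F) (M21 a) = M32 a := by
  rw [cn_apply, mul_inv_eq_iff_eq_mul]
  apply s_ext
  simp only [m_mul]; simp only [M21, MC, M32]
  ext i j
  fin_cases i <;> fin_cases j <;> simp [Matrix.mul_apply, Fin.sum_univ_three]

theorem CM32 (a : F) : cn (MC F) (M32 a) = M13 a := by
  rw [cn_apply, mul_inv_eq_iff_eq_mul]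
  apply s_ext
  simp only [m_mul]; simp only [M32, MC, M13]
  ext i j
  fin_cases i <;> fin_cases j <;> simp [Matrix.mul_apply, Fin.sum_univ_three]

theorem m21 (a : F) : x21 M12 (MT F) a = M21 a := by
  unfold x21; rw [TM12, neg_neg]
theorem m23 (a : F) : x23 M12 (MC F) a = M23 a := by
  unfold x23; rw [CM12]
theorem m31 (a : F) : x31 M12 (MC F) a = M31 a := by
  unfold x31; rw [CM12, CM23]
theorem m32 (a : F) : x32 M12 (MT F) (MC F) a = M32 a := by
  unfold x32; rw [TM12, neg_neg, CM21]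
theorem m13 (a : F) : x13 M12 (MT F) (MC F) a = M13 a := by
  unfold x13; rw [TM12, neg_neg, CM21, CM32]

theorem TD (ζ : F) (hζ : ζ ≠ 0) : (MT F)⁻¹ * MD ζ hζ * MT F = ME ζ hζ := by
  rw [mul_assoc, inv_mul_eq_iff_eq_mul]
  apply s_ext
  simp only [m_mul]; simp only [MD, MT, ME]
  ext i j
  fin_cases i <;> fin_cases j <;> simp [Matrix.mul_apply, Fin.sum_univ_three]

theorem TD' (ζ : F) (hζ : ζ ≠ 0) : MT F * MD ζ hζ * (MT F)⁻¹ = ME ζ hζ := by
  rw [mul_inv_eq_iff_eq_mul]
  apply s_ext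
  simp only [m_mul]; simp only [MD, MT, ME]
  ext i j
  fin_cases i <;> fin_cases j <;> simp [Matrix.mul_apply, Fin.sum_univ_three]

theorem DE (ζ : F) (hζ : ζ ≠ 0) : Commute (MD ζ hζ) (ME ζ hζ) := by
  apply s_ext
  simp only [m_mul]; simp only [MD, ME]
  ext i j
  fin_cases i <;> fin_cases j <;> simp [Matrix.mul_apply, Fin.sum_univ_three]

def MDi (ζ : F) (hζ : ζ ≠ 0) : SL3 F := ⟨!![ζ⁻¹, 0, 0; 0, 1, 0; 0, 0, ζ], by simp [Matrix.det_fin_three, hζ]⟩

theorem MD_inv (ζ : F) (hζ : ζ ≠ 0) : (MD ζ hζ)⁻¹ = MDi ζ hζ := by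
  apply inv_eq_of_mul_eq_one_right
  apply s_ext
  simp only [m_mul]; simp only [MD, MDi]
  ext i j
  fin_cases i <;> fin_cases j <;> simp [Matrix.mul_apply, Fin.sum_univ_three, hζ]

theorem CD (ζ : F) (hζ : ζ ≠ 0) : MC F * MD ζ hζ * (MC F)⁻¹ = MT F * MD ζ hζ * (MT F)⁻¹ * (MD ζ hζ)⁻¹ := by
  rw [TD', mul_inv_eq_iff_eq_mul, MD_inv]
  apply s_ext
  simp only [m_mul]; simp only [MD, MDi, ME, MC]
  ext i j
  fin_cases i <;> fin_cases j <;> simp [Matrix.mul_apply, Fin.sum_univ_three, hζ]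

theorem datM (ζ : F) (hζ0 : ζ ≠ 0) (N : ℕ) (hN : ζ ^ N = -1) (hζ : ∀ a : F, a ≠ 0 → ∃ n : ℕ, a = ζ ^ n) (B : Set F)
    (hB : ∀ S : AddSubgroup F, (∀ b ∈ B, b ∈ S) → (∀ b ∈ S, ζ ^ 3 * b ∈ S) → S = ⊤) :
    Dat3 (M12 (F := F)) (MD ζ hζ0) (MT F) (MC F) ζ N B where
  hζ0 := hζ0
  hζN := hN
  hζ := hζ
  hB := hB
  hadd := M12_add
  hd := DM12 ζ hζ0
  g5 := by
    rw [TD]
    apply s_ext
    simp only [m_mul]; simp only [MD, ME, M12]
    ext i j
    fin_cases i <;> fin_cases j <;> simp [Matrix.mul_apply, Fin.sum_univ_three]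
  g6 := by rw [TD]; exact DE ζ hζ0
  g7 := by
    have h := TM12 (1 : F)
    rw [cn_apply] at h
    have e : M12 (1 : F) * MT F * M12 1 * (MT F)⁻¹ * M12 1 = M12 1 * (MT F * M12 1 * (MT F)⁻¹) * M12 1 := by group
    rw [e, h]
    apply s_ext
    simp only [m_mul]; simp only [M12, MT, M21]
    ext i j
    fin_cases i <;> fin_cases j <;> simp [Matrix.mul_apply, Fin.sum_univ_three]
  c3 := by
    apply s_ext
    simp only [m_mul]; simp only [MC]
    ext i j
    fin_cases i <;> fin_cases j <;> simp [Matrix.mul_apply, Fin.sum_univ_three]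
  tc := by
    have h3 : (MC F)⁻¹ = MC F * MC F := by
      rw [inv_eq_iff_mul_eq_one, ← mul_assoc]
      apply s_ext
      simp only [m_mul]; simp only [MC]
      ext i j
      fin_cases i <;> fin_cases j <;> simp [Matrix.mul_apply, Fin.sum_univ_three]
    rw [h3]
    apply s_ext
    simp only [m_mul]; simp only [MC, MT]
    ext i j
    fin_cases i <;> fin_cases j <;> simp [Matrix.mul_apply, Fin.sum_univ_three]
  hA := CD ζ hζ0
  s1 := by
    intro b _
    change Commute (M12 1) (x13 M12 (MT F) (MC F) b)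
    rw [m13]
    apply s_ext
    simp only [m_mul]; simp only [M12, M13]
    ext i j
    fin_cases i <;> fin_cases j <;> simp [Matrix.mul_apply, Fin.sum_univ_three]
  s2 := by
    intro b _
    change Commute (M12 1) (x32 M12 (MT F) (MC F) b)
    rw [m32]
    apply s_ext
    simp only [m_mul]; simp only [M12, M32]
    ext i j
    fin_cases i <;> fin_cases j <;> simp [Matrix.mul_apply, Fin.sum_univ_three]
  s3 := by
    intro b _
    change M12 1 * (x23 M12 (MC F) b) = x13 M12 (MT F) (MC F) b * (x23 M12 (MC F) b) * M12 1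
    rw [m13, m23]
    apply s_ext
    simp only [m_mul]; simp only [M12, M13, M23]
    ext i j
    fin_cases i <;> fin_cases j <;> simp [Matrix.mul_apply, Fin.sum_univ_three]

theorem rt_trans (i j : Fin 3) (h : i ≠ j) (a : F) : (rt M12 (MT F) (MC F) i j a).1 = Matrix.transvection i j a := by
  fin_cases i <;> fin_cases j <;> first
    | exact absurd rfl h
    | (change (M12 a).1 = _
       ext k l; fin_cases k <;> fin_cases l <;> simp [M12, Matrix.transvection, Matrix.single])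
    | (change (x21 M12 (MT F) a).1 = _
       rw [m21]
       ext k l; fin_cases k <;> fin_cases l <;> simp [M21, Matrix.transvection, Matrix.single])
    | (change (x23 M12 (MC F) a).1 = _
       rw [m23]
       ext k l; fin_cases k <;> fin_cases l <;> simp [M23, Matrix.transvection, Matrix.single])
    | (change (x31 M12 (MC F) a).1 = _
       rw [m31]
       ext k l; fin_cases k <;> fin_cases l <;> simp [M31, Matrix.transvection, Matrix.single])
    | (change (x32 M12 (MT F) (MC F) a).1 = _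
       rw [m32]
       ext k l; fin_cases k <;> fin_cases l <;> simp [M32, Matrix.transvection, Matrix.single])
    | (change (x13 M12 (MT F) (MC F) a).1 = _
       rw [m13]
       ext k l; fin_cases k <;> fin_cases l <;> simp [M13, Matrix.transvection, Matrix.single])

/-- naturality of the root elements -/
theorem rt_map {G : Type*} [Group G] {x : F → G} {d t c : G} {ζ : F} {N : ℕ} {B : Set F} (D : Dat3 x d t c ζ N B)
    (Φ : G →* SL3 F) (hx : Φ (x 1) = M12 1) (hd : Φ d = MD ζ D.hζ0) (ht : Φ t = MT F) (hc : Φ c = MC F)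
    (i j : Fin 3) (h : i ≠ j) (a : F) : Φ (rt x t c i j a) = rt M12 (MT F) (MC F) i j a := by
  have hx' : ∀ a, Φ (x a) = M12 a := by
    intro a
    refine D.ind (P := fun a => Φ (x a) = M12 a) ?_ hx ?_ a
    · rw [D.x0, map_one]; exact M12_zero.symm
    · intro a ha
      have h1 := DM12 ζ D.hζ0 a
      rw [cn_apply] at h1
      rw [← D.hd, map_mul, map_mul, map_inv, ha, hd, h1]
  have hcn : ∀ w g : G, Φ (cn w g) = cn (Φ w) (Φ g) := by
    intro w g
    rw [cn_apply, cn_apply, map_mul, map_mul, map_inv]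
  have k21 : ∀ a, Φ (x21 x t a) = x21 M12 (MT F) a := by
    intro a; unfold x21; simp only [hcn, ht, hx']
  have k23 : ∀ a, Φ (x23 x c a) = x23 M12 (MC F) a := by
    intro a; unfold x23; simp only [hcn, hc, hx']
  have k31 : ∀ a, Φ (x31 x c a) = x31 M12 (MC F) a := by
    intro a; unfold x31; simp only [hcn, hc, hx']
  have k32 : ∀ a, Φ (x32 x t c a) = x32 M12 (MT F) (MC F) a := by
    intro a; unfold x32; simp only [hcn, hc, ht, hx']
  have k13 : ∀ a, Φ (x13 x t c a) = x13 M12 (MT F) (MC F) a := by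
    intro a; unfold x13; simp only [hcn, hc, ht, hx']
  fin_cases i <;> fin_cases j
  · exact absurd rfl h
  · exact hx' a
  · exact k13 a
  · exact k21 a
  · exact absurd rfl h
  · exact k23 a
  · exact k31 a
  · exact k32 a
  · exact absurd rfl h

end mat

end CfsgLib.Slthree
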