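import Cfsg.Agent.LibSltwo2

/-!
Field facts and matrices for the presentations of `SL₂(q)`.
-/

set_option autoImplicit false
set_option linter.all false

namespace CfsgLib.Sltwo

open Polynomial

/-! ### fields -/

section fld

variable {F : Type*} [Field F] [Fintype F]

theorem two_sq (a : F) : ∃ y z : F, y ^ 2 + z ^ 2 = a := by
  classical
  obtain ⟨p, hp⟩ := CharP.exists F
  haveI := hp
  obtain ⟨n, hpp, hn⟩ := FiniteField.card F p
  haveI : Fact p.Prime := ⟨hpp⟩
  by_cases h2 : p = 2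
  · subst h2
    obtain ⟨y, hy⟩ := (FiniteField.isSquare_of_char_two (F := F) (by rw [ringChar.eq F 2]) a)
    exact ⟨y, 0, by rw [hy]; ring⟩
  · have hodd : Fintype.card F % 2 = 1 := by
      rw [hn]
      have : Odd p := hpp.odd_of_ne_two h2
      exact Nat.odd_iff.1 (this.pow)
    obtain ⟨y, z, h⟩ := FiniteField.exists_root_sum_quadratic (R := F) (f := X ^ 2) (g := X ^ 2 - C a)
      (by simp) (degree_X_pow_sub_C (by norm_num) _) hodd
    refine ⟨y, z, ?_⟩
    simp only [eval_pow, eval_X, eval_sub, eval_C] at h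
    linear_combination h

theorem exists_gen : ∃ ζ : F, ζ ≠ 0 ∧ (∀ a : F, a ≠ 0 → ∃ n : ℕ, a = ζ ^ n) ∧ orderOf ζ = Fintype.card F - 1 := by
  classical
  obtain ⟨g, hg⟩ := IsCyclic.exists_generator (α := Fˣ)
  refine ⟨g, g.ne_zero, ?_, ?_⟩
  · intro a ha
    have h1 := hg (Units.mk0 a ha)
    rw [← mem_powers_iff_mem_zpowers] at h1
    obtain ⟨n, hn⟩ := h1
    refine ⟨n, ?_⟩
    have := congrArg Units.val hn
    simpa using this.symm
  · rw [orderOf_units, orderOf_eq_card_of_forall_mem_zpowers hg, Nat.card_eq_fintype_card, Fintype.card_units]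

theorem surj_sq {p : ℕ} [Fact p.Prime] [Algebra (ZMod p) F] {ζ : F} (hζ : ∀ a : F, a ≠ 0 → ∃ n : ℕ, a = ζ ^ n) :
    Function.Surjective (aeval (ζ ^ 2) : (ZMod p)[X] →ₐ[ZMod p] F) := by
  intro a
  obtain ⟨y, z, rfl⟩ := two_sq a
  have key : ∀ y : F, ∃ f : (ZMod p)[X], aeval (ζ ^ 2) f = y ^ 2 := by
    intro y
    by_cases hy : y = 0
    · exact ⟨0, by rw [hy]; simp⟩
    · obtain ⟨n, hn⟩ := hζ y hy
      exact ⟨X ^ n, by rw [map_pow, aeval_X, hn]; ring⟩
  obtain ⟨f, hf⟩ := key y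
  obtain ⟨g, hg⟩ := key z
  exact ⟨f + g, by rw [map_add, hf, hg]⟩

theorem neg_one_pow {ζ : F} (hζ0 : ζ ≠ 0) (hord : orderOf ζ = Fintype.card F - 1) (hodd : Odd (Fintype.card F)) :
    ζ ^ ((Fintype.card F - 1) / 2) = -1 := by
  obtain ⟨m, hm⟩ := hodd
  have hc : 1 < Fintype.card F := Fintype.one_lt_card
  have h1 : (Fintype.card F - 1) / 2 = m := by omega
  rw [h1]
  have h2 : (ζ ^ m) ^ 2 = 1 := by
    rw [← pow_mul]
    have : m * 2 = orderOf ζ := by omega
    rw [this, pow_orderOf_eq_one]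
  have h3 : (ζ ^ m - 1) * (ζ ^ m + 1) = 0 := by linear_combination h2
  rcases mul_eq_zero.1 h3 with h | h
  · exfalso
    have h4 : ζ ^ m = 1 := by linear_combination h
    have h5 := orderOf_dvd_of_pow_eq_one h4
    have h6 := Nat.le_of_dvd (by omega) h5
    omega
  · linear_combination h

/-- a generator which is a square whose successor is a square -/
theorem exists_kl {p : ℕ} [hp : Fact p.Prime] [Algebra (ZMod p) F] (hp2 : p ≠ 2) {ζ : F} (hζ0 : ζ ≠ 0)
    (hζ : ∀ a : F, a ≠ 0 → ∃ n : ℕ, a = ζ ^ n) (hord : orderOf ζ = Fintype.card F - 1) (hq : 9 < Fintype.card F) :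
    ∃ k l : ℕ, ζ ^ (2 * k) = 1 + ζ ^ (2 * l) ∧
      Function.Surjective (aeval (ζ ^ (2 * l)) : (ZMod p)[X] →ₐ[ZMod p] F) := by
  classical
  haveI hchar : CharP F p := by
    have := charP_of_injective_algebraMap (algebraMap (ZMod p) F).injective p
    exact this
  have h2 : (2 : F) ≠ 0 := by
    intro h
    have h1 : ((2 : ℕ) : F) = 0 := by exact_mod_cast h
    rw [CharP.cast_eq_zero_iff F p] at h1
    exact hp2 ((Nat.prime_dvd_prime_iff_eq hp.out Nat.prime_two).1 h1)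
  have hne : ∀ m : ℕ, 0 < m → m < Fintype.card F - 1 → ζ ^ m ≠ 1 := by
    intro m hm hm2 h
    have := Nat.le_of_dvd hm (orderOf_dvd_of_pow_eq_one h)
    omega
  have a1 : ζ ^ 2 ≠ 1 := hne 2 (by norm_num) (by omega)
  have a2 : ζ ^ 2 ≠ -1 := by
    intro h
    apply hne 4 (by norm_num) (by omega)
    have : ζ ^ 4 = (ζ ^ 2) ^ 2 := by ring
    rw [this, h]; ring
  have s1 : (ζ - ζ⁻¹) / 2 ≠ 0 := by
    intro h
    apply a1
    field_simp at h
    linear_combination h
  have s2 : (ζ + ζ⁻¹) / 2 ≠ 0 := by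
    intro h
    apply a2
    field_simp at h
    linear_combination h
  obtain ⟨l, hl⟩ := hζ _ s1
  obtain ⟨k, hk⟩ := hζ _ s2
  refine ⟨k, l, ?_, ?_⟩
  · rw [pow_mul', pow_mul', ← hk, ← hl]
    field_simp
    ring
  -- the intermediate field
  set α : F := ζ ^ (2 * l) with hα
  set K0 := IntermediateField.adjoin (ZMod p) ({α} : Set F) with hK0
  have hαK : α ∈ K0 := IntermediateField.mem_adjoin_simple_self _ _
  obtain ⟨v, hv⟩ : ∃ v : F, v = ζ ^ 2 + (ζ ^ 2)⁻¹ := ⟨_, rfl⟩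
  have hvα : v = 4 * α + 2 := by
    rw [hα, pow_mul', ← hl, hv]
    field_simp
    ring
  have hvK : v ∈ K0 := by
    rw [hvα]
    have h4 : (4 : F) ∈ K0 := by exact_mod_cast natCast_mem K0 4
    have h2' : (2 : F) ∈ K0 := by exact_mod_cast natCast_mem K0 2
    exact K0.add_mem (K0.mul_mem h4 hαK) h2'
  obtain ⟨z, hz⟩ : ∃ z : F, z = ζ ^ 2 := ⟨_, rfl⟩
  have hz0 : z ≠ 0 := by rw [hz]; exact pow_ne_zero _ hζ0
  have hzz : z * z = v * z - 1 := by
    rw [hv, ← hz]
    field_simp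
    ring
  have hspan : ∀ y : F, ∃ a b : K0, y = (a : F) + b * z := by
    have hpow : ∀ n : ℕ, ∃ a b : K0, z ^ n = (a : F) + b * z := by
      intro n
      induction n with
      | zero => exact ⟨1, 0, by simp⟩
      | succ n ih =>
        obtain ⟨a, b, hab⟩ := ih
        refine ⟨-b, a + b * ⟨v, hvK⟩, ?_⟩
        rw [pow_succ, hab]
        push_cast
        linear_combination (b : F) * hzz
    intro y
    obtain ⟨y1, y2, rfl⟩ := two_sq y
    have key : ∀ y : F, ∃ a b : K0, y ^ 2 = (a : F) + b * z := by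
      intro y
      by_cases hy : y = 0
      · exact ⟨0, 0, by rw [hy]; simp⟩
      · obtain ⟨n, hn⟩ := hζ y hy
        obtain ⟨a, b, hab⟩ := hpow n
        refine ⟨a, b, ?_⟩
        rw [← hab, hn, hz]; ring
    obtain ⟨a, b, h1⟩ := key y1
    obtain ⟨a', b', h2⟩ := key y2
    refine ⟨a + a', b + b', ?_⟩
    rw [h1, h2]; push_cast; ring
  have hc1 : Nat.card F ≤ Nat.card K0 * Nat.card K0 := by
    have := Nat.card_le_card_of_surjective (fun ab : K0 × K0 => (ab.1 : F) + ab.2 * z) (fun y => by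
      obtain ⟨a, b, h⟩ := hspan y
      exact ⟨(a, b), h.symm⟩)
    rwa [Nat.card_prod] at this
  have hc2 : Nat.card F = Nat.card K0 ^ Module.finrank K0 F := Module.natCard_eq_pow_finrank
  have hK1 : 1 < Nat.card K0 := Finite.one_lt_card
  have hd2 : Module.finrank K0 F ≤ 2 := by
    rw [hc2, ← pow_two] at hc1
    exact (Nat.pow_le_pow_iff_right hK1).1 hc1
  have hFc : Nat.card F = Fintype.card F := Nat.card_eq_fintype_card
  have htop : K0 = ⊤ := by
    by_contra hne'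
    have hd : Module.finrank K0 F = 2 := by
      have h0 : Module.finrank K0 F ≠ 0 := Module.finrank_pos.ne'
      have h1 : Module.finrank K0 F ≠ 1 := by
        intro h
        exact hne' (IntermediateField.finrank_eq_one_iff_eq_top.1 h)
      omega
    set r := Nat.card K0 with hr
    rw [hd, hFc] at hc2
    have hvr : v ^ r = v := by
      have h1 := FiniteField.pow_card (⟨v, hvK⟩ : K0)
      have h2 := congrArg (fun y : K0 => (y : F)) h1
      simpa [hr, Nat.card_eq_fintype_card] using h2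
    obtain ⟨n, hn⟩ : ∃ n : ℕ, r = p ^ n := by
      haveI : CharP K0 p := by
        have := charP_of_injective_algebraMap (algebraMap (ZMod p) K0).injective p
        exact this
      obtain ⟨n, _, hn⟩ := FiniteField.card K0 p
      exact ⟨n, by rw [hr, Nat.card_eq_fintype_card, hn]⟩
    have h3 : z ^ r + (z ^ r)⁻¹ = z + z⁻¹ := by
      have h4 : (z + z⁻¹) ^ r = z ^ r + (z⁻¹) ^ r := by rw [hn]; exact add_pow_char_pow z z⁻¹ p n
      have h5 : z + z⁻¹ = v := by rw [hv, hz]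
      rw [h5, hvr] at h4
      rw [h5, h4, inv_pow]
    have hzr : z ^ r ≠ 0 := pow_ne_zero _ hz0
    have h6 : (z ^ r - z) * (z ^ r * z - 1) = 0 := by
      field_simp at h3
      linear_combination h3
    rcases mul_eq_zero.1 h6 with h | h
    · have h7 : z ^ (r - 1) = 1 := by
        have h8 : z ^ (r - 1) * z = z := by
          rw [← pow_succ]
          have : r - 1 + 1 = r := by omega
          rw [this]; linear_combination h
        exact mul_right_cancel₀ hz0 (by rw [h8, one_mul])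
      rw [hz, ← pow_mul] at h7
      have h9 := Nat.le_of_dvd (by omega) (orderOf_dvd_of_pow_eq_one h7)
      rw [hord, hc2] at h9
      have : r ^ 2 = r * r := by ring
      have h10 : 2 ≤ r := hK1
      have : 2 * r ≤ r * r := Nat.mul_le_mul_right r h10
      omega
    · have h7 : z ^ (r + 1) = 1 := by
        rw [pow_succ]; linear_combination h
      rw [hz, ← pow_mul] at h7
      have h9 := Nat.le_of_dvd (by omega) (orderOf_dvd_of_pow_eq_one h7)
      rw [hord, hc2] at h9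
      have h10 : 4 ≤ r := by
        by_contra hlt
        have h11 : r ≤ 3 := by omega
        have h12 : r ^ 2 ≤ 3 ^ 2 := Nat.pow_le_pow_left h11 2
        omega
      have h13 : 4 * r ≤ r * r := Nat.mul_le_mul_right r h10
      have : r ^ 2 = r * r := by ring
      omega
  intro y
  have hy : y ∈ K0 := by rw [htop]; trivial
  have hint : IsIntegral (ZMod p) α := Algebra.IsIntegral.isIntegral α
  have h1 : y ∈ K0.toSubalgebra := hy
  rw [hK0, IntermediateField.adjoin_simple_toSubalgebra_of_isAlgebraic hint.isAlgebraic, Algebra.adjoin_singleton_eq_range_aeval] at h1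
  exact h1

end fld

/-! ### matrices -/

section mat

variable {F : Type*} [Field F]

abbrev SL (F : Type*) [Field F] := Matrix.SpecialLinearGroup (Fin 2) F

def Xm (a : F) : SL F := ⟨!![1, a; 0, 1], by simp [Matrix.det_fin_two]⟩
def Hm (ζ : F) (hζ : ζ ≠ 0) : SL F := ⟨!![ζ, 0; 0, ζ⁻¹], by simp [Matrix.det_fin_two, hζ]⟩
def Tm (F : Type*) [Field F] : SL F := ⟨!![0, 1; -1, 0], by simp [Matrix.det_fin_two]⟩

theorem sl_ext {A B : SL F} (h00 : A.1 0 0 = B.1 0 0) (h01 : A.1 0 1 = B.1 0 1) (h10 : A.1 1 0 = B.1 1 0)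
    (h11 : A.1 1 1 = B.1 1 1) : A = B := by
  apply Subtype.ext
  ext i j
  fin_cases i <;> fin_cases j
  · exact h00
  · exact h01
  · exact h10
  · exact h11

theorem mul00 (A B : SL F) : (A * B).1 0 0 = A.1 0 0 * B.1 0 0 + A.1 0 1 * B.1 1 0 := by
  change (A.1 * B.1) 0 0 = _
  rw [Matrix.mul_apply, Fin.sum_univ_two]
theorem mul01 (A B : SL F) : (A * B).1 0 1 = A.1 0 0 * B.1 0 1 + A.1 0 1 * B.1 1 1 := by
  change (A.1 * B.1) 0 1 = _
  rw [Matrix.mul_apply, Fin.sum_univ_two]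
theorem mul10 (A B : SL F) : (A * B).1 1 0 = A.1 1 0 * B.1 0 0 + A.1 1 1 * B.1 1 0 := by
  change (A.1 * B.1) 1 0 = _
  rw [Matrix.mul_apply, Fin.sum_univ_two]
theorem mul11 (A B : SL F) : (A * B).1 1 1 = A.1 1 0 * B.1 0 1 + A.1 1 1 * B.1 1 1 := by
  change (A.1 * B.1) 1 1 = _
  rw [Matrix.mul_apply, Fin.sum_univ_two]

theorem X00 (a : F) : (Xm a).1 0 0 = 1 := rfl
theorem X01 (a : F) : (Xm a).1 0 1 = a := rfl
theorem X10 (a : F) : (Xm a).1 1 0 = 0 := rfl
theorem X11 (a : F) : (Xm a).1 1 1 = 1 := rfl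
theorem H00 (a : F) (h : a ≠ 0) : (Hm a h).1 0 0 = a := rfl
theorem H01 (a : F) (h : a ≠ 0) : (Hm a h).1 0 1 = 0 := rfl
theorem H10 (a : F) (h : a ≠ 0) : (Hm a h).1 1 0 = 0 := rfl
theorem H11 (a : F) (h : a ≠ 0) : (Hm a h).1 1 1 = a⁻¹ := rfl
theorem T00 : (Tm F).1 0 0 = 0 := rfl
theorem T01 : (Tm F).1 0 1 = 1 := rfl
theorem T10 : (Tm F).1 1 0 = -1 := rfl
theorem T11 : (Tm F).1 1 1 = 0 := rfl

theorem X_add (a b : F) : Xm (a + b) = Xm a * Xm b := by
  apply sl_ext <;> simp only [mul00, mul01, mul10, mul11, X00, X01, X10, X11] <;> ring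

theorem X_zero : Xm (0 : F) = 1 := by
  apply sl_ext <;> simp [X00, X01, X10, X11]

theorem X_neg (a : F) : (Xm a)⁻¹ = Xm (-a) := by
  symm
  apply eq_inv_of_mul_eq_one_left
  rw [← X_add, neg_add_cancel, X_zero]

theorem HX (ζ : F) (hζ : ζ ≠ 0) (a : F) : Hm ζ hζ * Xm a * (Hm ζ hζ)⁻¹ = Xm (ζ ^ 2 * a) := by
  rw [mul_inv_eq_iff_eq_mul]
  apply sl_ext <;> simp only [mul00, mul01, mul10, mul11, X00, X01, X10, X11, H00, H01, H10, H11] <;> field_simp <;> ring

theorem TH (ζ : F) (hζ : ζ ≠ 0) : Tm F * Hm ζ hζ * (Tm F)⁻¹ = (Hm ζ hζ)⁻¹ := by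
  apply eq_inv_of_mul_eq_one_left
  have : Tm F * Hm ζ hζ * (Tm F)⁻¹ * Hm ζ hζ = (Tm F * Hm ζ hζ) * ((Hm ζ hζ)⁻¹ * Tm F)⁻¹ := by group
  rw [this, mul_inv_eq_one, eq_inv_mul_iff_mul_eq]
  apply sl_ext <;> simp only [mul00, mul01, mul10, mul11, T00, T01, T10, T11, H00, H01, H10, H11] <;> field_simp <;> ring

theorem XR (s : F) (hs : s ≠ 0) (hh : SL F) (hH : hh = Hm s hs) : Xm s * Tm F * Xm s⁻¹ * (Tm F)⁻¹ * Xm s = hh * Tm F := by
  have e : Xm s * Tm F * Xm s⁻¹ = hh * Tm F * Xm (-s) * Tm F := by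
    rw [hH]
    apply sl_ext <;> simp only [mul00, mul01, mul10, mul11, X00, X01, X10, X11, T00, T01, T10, T11, H00, H01, H10, H11] <;> field_simp <;> ring
  rw [e, ← X_neg]; group

theorem Hm_one : Hm (1 : F) one_ne_zero = 1 := by
  apply sl_ext <;> simp [H00, H01, H10, H11]

theorem dat (ζ : F) (hζ : ζ ≠ 0) : Dat (Xm (F := F)) (Hm ζ hζ) (Tm F) ζ where
  hζ0 := hζ
  hadd := X_add
  hh := HX ζ hζ
  ht := TH ζ hζ
  r1 := by
    have := XR (1 : F) one_ne_zero 1 Hm_one.symm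
    rwa [inv_one, one_mul] at this
  rz := XR ζ hζ _ rfl

theorem H_pow (ζ : F) (hζ : ζ ≠ 0) (n : ℕ) : Hm ζ hζ ^ n = Hm (ζ ^ n) (pow_ne_zero n hζ) := by
  induction n with
  | zero =>
    rw [pow_zero]
    apply sl_ext <;> simp [H00, H01, H10, H11]
  | succ n ih =>
    rw [pow_succ, ih]
    apply sl_ext <;> simp only [mul00, mul01, mul10, mul11, H00, H01, H10, H11] <;> field_simp <;> ring

theorem TT : (Tm F * Tm F).1 = -1 := by
  ext i j
  fin_cases i <;> fin_cases j
  · change (Tm F * Tm F).1 0 0 = _; rw [mul00]; simp [T00, T01, T10, T11]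
  · change (Tm F * Tm F).1 0 1 = _; rw [mul01]; simp [T00, T01, T10, T11]
  · change (Tm F * Tm F).1 1 0 = _; rw [mul10]; simp [T00, T01, T10, T11]
  · change (Tm F * Tm F).1 1 1 = _; rw [mul11]; simp [T00, T01, T10, T11]

theorem gen_top [Fintype F] (ζ : F) (hζ0 : ζ ≠ 0) (hζ : ∀ a : F, a ≠ 0 → ∃ n : ℕ, a = ζ ^ n) :
    Subgroup.closure ({Xm 1, Hm ζ hζ0, Tm F} : Set (SL F)) = ⊤ := by
  set K := Subgroup.closure ({Xm 1, Hm ζ hζ0, Tm F} : Set (SL F)) with hK
  have hX1 : Xm (1 : F) ∈ K := Subgroup.subset_closure (by simp)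
  have hH : Hm ζ hζ0 ∈ K := Subgroup.subset_closure (by simp)
  have hT : Tm F ∈ K := Subgroup.subset_closure (by simp)
  have hXz : ∀ n : ℕ, Xm (ζ ^ (2 * n)) ∈ K := by
    intro n
    induction n with
    | zero => simpa using hX1
    | succ n ih =>
      have : Xm (ζ ^ (2 * (n + 1))) = Hm ζ hζ0 * Xm (ζ ^ (2 * n)) * (Hm ζ hζ0)⁻¹ := by
        rw [HX]; congr 1; ring
      rw [this]
      exact K.mul_mem (K.mul_mem hH ih) (K.inv_mem hH)
  have hXa : ∀ a : F, Xm a ∈ K := by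
    intro a
    obtain ⟨y, z, rfl⟩ := two_sq a
    have key : ∀ y : F, Xm (y ^ 2) ∈ K := by
      intro y
      by_cases hy : y = 0
      · rw [hy]
        have : (0 : F) ^ 2 = 0 := by ring
        rw [this, X_zero]; exact K.one_mem
      · obtain ⟨n, hn⟩ := hζ y hy
        have : y ^ 2 = ζ ^ (2 * n) := by rw [hn]; ring
        rw [this]; exact hXz n
    rw [X_add]
    exact K.mul_mem (key y) (key z)
  have hHs : ∀ (s : F) (hs : s ≠ 0), Hm s hs ∈ K := by
    intro s hs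
    obtain ⟨n, hn⟩ := hζ s hs
    have : Hm s hs = Hm ζ hζ0 ^ n := by
      rw [H_pow]
      congr 1
    rw [this]; exact K.pow_mem hH n
  rw [eq_top_iff]
  intro g _
  have hdet : g.1 0 0 * g.1 1 1 - g.1 0 1 * g.1 1 0 = 1 := by
    have := g.2
    rwa [Matrix.det_fin_two] at this
  by_cases hc : g.1 1 0 = 0
  · rw [hc, mul_zero, sub_zero] at hdet
    have ha : g.1 0 0 ≠ 0 := left_ne_zero_of_mul_eq_one hdet
    have hd : g.1 1 1 = (g.1 0 0)⁻¹ := eq_inv_of_mul_eq_one_right hdet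
    have : g = Xm (g.1 0 0 * g.1 0 1) * Hm (g.1 0 0) ha := by
      apply sl_ext
      · simp only [mul00, X00, X01, H00, H10]; ring
      · simp only [mul01, X00, X01, H01, H11]; field_simp; ring
      · simp only [mul10, X10, X11, H00, H10, hc]; ring
      · simp only [mul11, X10, X11, H01, H11, hd]; ring
    rw [this]
    exact K.mul_mem (hXa _) (hHs _ _)
  · have hs : -(g.1 1 0)⁻¹ ≠ 0 := neg_ne_zero.2 (inv_ne_zero hc)
    have : g = Xm (g.1 0 0 / g.1 1 0) * (Hm (-(g.1 1 0)⁻¹) hs * Tm F) * Xm (g.1 1 1 / g.1 1 0) := by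
      apply sl_ext
      · simp only [mul00, mul01, mul10, mul11, X00, X01, X10, X11, H00, H01, H10, H11, T00, T01, T10, T11]
        field_simp; ring
      · simp only [mul00, mul01, mul10, mul11, X00, X01, X10, X11, H00, H01, H10, H11, T00, T01, T10, T11]
        field_simp
        linear_combination (-(g.1 1 0)) * hdet
      · simp only [mul00, mul01, mul10, mul11, X00, X01, X10, X11, H00, H01, H10, H11, T00, T01, T10, T11]
        field_simp; ring
      · simp only [mul00, mul01, mul10, mul11, X00, X01, X10, X11, H00, H01, H10, H11, T00, T01, T10, T11]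
        field_simp; ring
    rw [this]
    exact K.mul_mem (K.mul_mem (hXa _) (K.mul_mem (hHs _ _) hT)) (hXa _)

end mat

end CfsgLib.Sltwo
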