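import Cfsg.Statements.S2401
import Cfsg.Agent.LibSLn6

set_option autoImplicit false
open Cfsg

namespace Cfsg.Agent.S2401

section

variable {K : Type*} [Field K] (n : ℕ)

/-- the relators -/
abbrev rels : Set (FreeGroup ({ij : Fin n × Fin n // ij.1 ≠ ij.2} × K)) :=
        ({g : FreeGroup ({ij : Fin n × Fin n // ij.1 ≠ ij.2} × K) | ∃ (a : {ij : Fin n × Fin n // ij.1 ≠ ij.2}) (t u : K),
            g = FreeGroup.of (a, t) * FreeGroup.of (a, u) * (FreeGroup.of (a, t + u))⁻¹} ∪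
          {g | ∃ (a b : {ij : Fin n × Fin n // ij.1 ≠ ij.2}) (t u : K), a.1.1 ≠ b.1.2 ∧ a.1.2 ≠ b.1.1 ∧
            g = FreeGroup.of (a, t) * FreeGroup.of (b, u) * (FreeGroup.of (a, t))⁻¹ * (FreeGroup.of (b, u))⁻¹} ∪
          {g | ∃ (a b : {ij : Fin n × Fin n // ij.1 ≠ ij.2}) (h : a.1.1 ≠ b.1.2) (t u : K), a.1.2 = b.1.1 ∧
            g = FreeGroup.of (a, t) * FreeGroup.of (b, u) * (FreeGroup.of (a, t))⁻¹ * (FreeGroup.of (b, u))⁻¹ *
              (FreeGroup.of (⟨(a.1.1, b.1.2), h⟩, t * u))⁻¹})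

theorem mk_rel {z : FreeGroup ({ij : Fin n × Fin n // ij.1 ≠ ij.2} × K)} (h : z ∈ rels n) :
    PresentedGroup.mk (rels (K := K) n) z = 1 := by
  show (QuotientGroup.mk z : FreeGroup _ ⧸ Subgroup.normalClosure (rels (K := K) n)) = 1
  rw [QuotientGroup.eq_one_iff]
  exact Subgroup.subset_normalClosure h

theorem main [Finite K] (hn : 3 ≤ n) :
    ∃ e : PresentedGroup (rels (K := K) n) ≃* Matrix.SpecialLinearGroup (Fin n) K,
      ∀ (a : {ij : Fin n × Fin n // ij.1 ≠ ij.2}) (t : K), ((e (PresentedGroup.of (a, t)) : Matrix (Fin n) (Fin n) K)) = Matrix.transvection a.1.1 a.1.2 t := by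
  have hrel : ∀ z ∈ rels (K := K) n, FreeGroup.lift (fun p : {ij : Fin n × Fin n // ij.1 ≠ ij.2} × K =>
      CfsgLib.SLn.TT p.1.2 p.2) z = 1 := by
    rintro z ((⟨a, t, u, rfl⟩ | ⟨a, b, t, u, h1, h2, rfl⟩) | ⟨a, b, h, t, u, h1, rfl⟩)
    · simp only [map_mul, map_inv, FreeGroup.lift_apply_of]
      rw [mul_inv_eq_one, CfsgLib.SLn.TT_add]
    · simp only [map_mul, map_inv, FreeGroup.lift_apply_of]
      rw [CfsgLib.SLn.TT_comm a.2 b.2 h2 h1]
      group
    · obtain ⟨⟨i, j⟩, hij⟩ := a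
      obtain ⟨⟨j', k⟩, hjk⟩ := b
      simp only at h1 h hij hjk
      subst h1
      simp only [map_mul, map_inv, FreeGroup.lift_apply_of]
      rw [CfsgLib.SLn.TT_mulc hij hjk h]
      group
  obtain ⟨σ, hσ⟩ : ∃ σ : PresentedGroup (rels (K := K) n) →* Matrix.SpecialLinearGroup (Fin n) K,
      ∀ (a : {ij : Fin n × Fin n // ij.1 ≠ ij.2}) (t : K), σ (PresentedGroup.of (a, t)) = CfsgLib.SLn.TT a.2 t := by
    refine ⟨PresentedGroup.toGroup hrel, ?_⟩
    intro a t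
    exact PresentedGroup.toGroup.of hrel
  have hof : ∀ (a : {ij : Fin n × Fin n // ij.1 ≠ ij.2}) (t : K),
      (PresentedGroup.of (a, t) : PresentedGroup (rels (K := K) n)) = PresentedGroup.mk (rels (K := K) n) (FreeGroup.of (a, t)) := fun _ _ => rfl
  let y : Fin n → Fin n → K → PresentedGroup (rels (K := K) n) := fun i j a => if h : i ≠ j then PresentedGroup.of (⟨(i, j), h⟩, a) else 1
  have hy : ∀ i j, ∀ h : i ≠ j, ∀ a, y i j a = PresentedGroup.mk (rels (K := K) n) (FreeGroup.of (⟨(i, j), h⟩, a)) := by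
    intro i j h a
    simp only [y]
    rw [dif_pos h]
    rfl
  have hgen : Subgroup.closure {z | ∃ i j, i ≠ j ∧ ∃ a, z = y i j a} = ⊤ := by
    rw [← PresentedGroup.closure_range_of]
    congr 1
    ext z
    constructor
    · rintro ⟨i, j, h, a, rfl⟩
      exact ⟨(⟨(i, j), h⟩, a), (hy i j h a).symm⟩
    · rintro ⟨⟨⟨⟨i, j⟩, h⟩, a⟩, rfl⟩
      exact ⟨i, j, h, a, (hy i j h a).symm⟩
  have hinj := CfsgLib.SLn.inj_of_rel hn σ y
    (by
      intro i j h a b
      rw [hy i j h, hy i j h, hy i j h]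
      have := mk_rel n (K := K) (Or.inl (Or.inl ⟨⟨(i, j), h⟩, a, b, rfl⟩))
      rw [map_mul, map_mul, map_inv, mul_inv_eq_one] at this
      exact this.symm)
    (by
      intro i j k l h h' h1 h2 a b
      rw [hy i j h, hy k l h']
      have := mk_rel n (K := K) (Or.inl (Or.inr ⟨⟨(i, j), h⟩, ⟨(k, l), h'⟩, a, b, h2, h1, rfl⟩))
      rw [map_mul, map_mul, map_mul, map_inv, map_inv, mul_inv_eq_one, mul_inv_eq_iff_eq_mul] at this
      exact this)
    (by
      intro i j k h h' h1 a b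
      rw [hy i j h, hy j k h', hy i k h1]
      have := mk_rel n (K := K) (Or.inr ⟨⟨(i, j), h⟩, ⟨(j, k), h'⟩, h1, a, b, rfl, rfl⟩)
      rw [map_mul, map_mul, map_mul, map_mul, map_inv, map_inv, map_inv, mul_inv_eq_one, mul_inv_eq_iff_eq_mul, mul_inv_eq_iff_eq_mul] at this
      exact this)
    (by
      intro i j h a
      rw [hy i j h]
      exact hσ ⟨(i, j), h⟩ a)
  rw [hgen] at hinj
  have hbij : Function.Bijective σ := by
    constructor
    · rw [injective_iff_map_eq_one]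
      exact fun g hg => hinj g trivial hg
    · rw [← MonoidHom.range_eq_top, eq_top_iff, ← CfsgLib.SLn.TT_gen (K := K) (n := n) (by omega), Subgroup.closure_le]
      rintro _ ⟨i, j, h, a, rfl⟩
      exact ⟨PresentedGroup.of (⟨(i, j), h⟩, a), hσ ⟨(i, j), h⟩ a⟩
  refine ⟨MulEquiv.ofBijective σ hbij, ?_⟩
  intro a t
  have := congrArg Subtype.val (hσ a t)
  rw [CfsgLib.SLn.TT_coe] at this
  exact this

end

/-- The Steinberg presentation of `SL_n` over a finite field for `n ≥ 3`: the group generated by symbols `x_ij(t)` (`i ≠ j`, `t` in the field) subject to `x_ij(t) x_ij(u) = x_ij(t + u)` and, for `i ≠ l`, `x_ij(t) x_kl(u) x_ij(t)⁻¹ x_kl(u)⁻¹ = x_il(tu)` if `j = k` and `= 1` if `j ≠ k`, is isomorphic to `SL_n` by an isomorphism sending `x_ij(t)` to the elementary matrix `1 + t E_ij`. -/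
theorem result {K : Type*} [Field K] [Finite K] (n : ℕ) (hn : 3 ≤ n) :
    ∃ e : PresentedGroup
        ({g : FreeGroup ({ij : Fin n × Fin n // ij.1 ≠ ij.2} × K) | ∃ (a : {ij : Fin n × Fin n // ij.1 ≠ ij.2}) (t u : K),
            g = FreeGroup.of (a, t) * FreeGroup.of (a, u) * (FreeGroup.of (a, t + u))⁻¹} ∪
          {g | ∃ (a b : {ij : Fin n × Fin n // ij.1 ≠ ij.2}) (t u : K), a.1.1 ≠ b.1.2 ∧ a.1.2 ≠ b.1.1 ∧
            g = FreeGroup.of (a, t) * FreeGroup.of (b, u) * (FreeGroup.of (a, t))⁻¹ * (FreeGroup.of (b, u))⁻¹} ∪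
          {g | ∃ (a b : {ij : Fin n × Fin n // ij.1 ≠ ij.2}) (h : a.1.1 ≠ b.1.2) (t u : K), a.1.2 = b.1.1 ∧
            g = FreeGroup.of (a, t) * FreeGroup.of (b, u) * (FreeGroup.of (a, t))⁻¹ * (FreeGroup.of (b, u))⁻¹ *
              (FreeGroup.of (⟨(a.1.1, b.1.2), h⟩, t * u))⁻¹}) ≃* Matrix.SpecialLinearGroup (Fin n) K,
      ∀ (a : {ij : Fin n × Fin n // ij.1 ≠ ij.2}) (t : K), ((e (PresentedGroup.of (a, t)) : Matrix (Fin n) (Fin n) K)) = Matrix.transvection a.1.1 a.1.2 t := by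
  exact main n hn

end Cfsg.Agent.S2401
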