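import Cfsg.Agent.LibSlthree3
import Cfsg.Agent.LibSltwo3
import Cfsg.Agent.S2401

/-!
Short presentations of `SL₃(q)`.
-/

set_option autoImplicit false
set_option linter.all false

namespace CfsgLib.Slthree

open Polynomial
open CfsgLib.Sltwo (W cj cj_map W_map exX evalW comm_gen comm_two cj_succ cj_zero exists_gen)

abbrev FG4 := FreeGroup (Fin 4)

/-- the generators of `SL₃` -/
def gens {F : Type*} [Field F] (ζ : F) (hζ : ζ ≠ 0) : Fin 4 → SL3 F := ![M12 1, MD ζ hζ, MT F, MC F]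

theorem assemble {F : Type*} [Field F] [Fintype F] {ζ : F} (hζ0 : ζ ≠ 0) (L : List FG4)
    (hB : ∀ r ∈ L, FreeGroup.lift (gens ζ hζ0) r = 1) (N : ℕ) (B : Set F)
    (hA : ∀ (G : Type) [Group G] (ρ : FG4 →* G), (∀ r ∈ L, ρ r = 1) →
      ∃ x : F → G, Dat3 x (ρ (FreeGroup.of 1)) (ρ (FreeGroup.of 2)) (ρ (FreeGroup.of 3)) ζ N B ∧ x 1 = ρ (FreeGroup.of 0)) :
    ∃ rels : Finset FG4, rels.card ≤ L.length ∧ Nonempty (PresentedGroup (↑rels : Set FG4) ≃* SL3 F) := by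
  classical
  refine ⟨L.toFinset, L.toFinset_card_le, ?_⟩
  set rels : Set FG4 := ↑L.toFinset with hrels
  let ρ : FG4 →* PresentedGroup rels := PresentedGroup.mk rels
  have hρ : ∀ r ∈ L, ρ r = 1 := by
    intro r hr
    apply (QuotientGroup.eq_one_iff r).2
    apply Subgroup.subset_normalClosure
    simpa [hrels] using hr
  obtain ⟨x, D, hx1⟩ := hA (PresentedGroup rels) ρ hρ
  have hgen : Subgroup.closure ({x 1, ρ (FreeGroup.of 1), ρ (FreeGroup.of 2), ρ (FreeGroup.of 3)} : Set (PresentedGroup rels)) = ⊤ := by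
    rw [eq_top_iff, ← PresentedGroup.closure_range_of rels, Subgroup.closure_le]
    rintro _ ⟨i, rfl⟩
    fin_cases i
    · exact Subgroup.subset_closure (by rw [hx1]; exact Or.inl rfl)
    · exact Subgroup.subset_closure (Or.inr (Or.inl rfl))
    · exact Subgroup.subset_closure (Or.inr (Or.inr (Or.inl rfl)))
    · exact Subgroup.subset_closure (Or.inr (Or.inr (Or.inr rfl)))
  -- the map
  have hrel : ∀ r ∈ rels, FreeGroup.lift (gens ζ hζ0) r = 1 := by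
    intro r hr
    have hr' : r ∈ L := by simpa [hrels] using hr
    exact hB r hr'
  let Φ : PresentedGroup rels →* SL3 F := PresentedGroup.toGroup hrel
  have hΦ : ∀ i, Φ (ρ (FreeGroup.of i)) = gens ζ hζ0 i := fun i => PresentedGroup.toGroup.of hrel
  obtain ⟨σ, hσ⟩ := D.exSigma
  have hσs := D.sigma_surj hgen σ hσ
  obtain ⟨e, he⟩ := Cfsg.Agent.S2401.result (K := F) 3 le_rfl
  have hcomp : ∀ s, Φ (σ s) = e s := by
    have h1 : Φ.comp σ = e.toMonoidHom := by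
      apply PresentedGroup.ext
      rintro ⟨a, s⟩
      change Φ (σ (PresentedGroup.of (a, s))) = e (PresentedGroup.of (a, s))
      rw [hσ]
      have h2 := rt_map D Φ (by rw [hx1]; exact hΦ 0) (hΦ 1) (hΦ 2) (hΦ 3) a.1.1 a.1.2 a.2 s
      rw [h2]
      apply Subtype.ext
      rw [rt_trans _ _ a.2]
      exact (he a s).symm
    intro s
    exact DFunLike.congr_fun h1 s
  have hbij : Function.Bijective Φ := by
    constructor
    · rw [injective_iff_map_eq_one]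
      intro g hg
      obtain ⟨s, rfl⟩ := hσs g
      rw [hcomp] at hg
      have : s = 1 := by
        apply e.injective
        rw [hg, map_one]
      rw [this, map_one]
    · intro y
      obtain ⟨s, rfl⟩ := e.surjective y
      exact ⟨σ s, hcomp s⟩
  exact ⟨MulEquiv.ofBijective Φ hbij⟩

/-! ### the relations -/

section rels

variable {G : Type*} [Group G] {p : ℕ}

noncomputable def Bg (k : ℕ) (m : (ZMod p)[X]) (u d : G) : List G :=
  [u ^ p, u * cj d u 1 * u⁻¹ * (cj d u 1)⁻¹, d ^ k * u * (d ^ k)⁻¹ * (u * cj d u 1)⁻¹, W d u m]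

noncomputable def Bs (m : (ZMod p)[X]) (u d : G) : List G :=
  [u ^ p, u * cj d u 1 * u⁻¹ * (cj d u 1)⁻¹, W d u m]

noncomputable def B4 (m : (ZMod 2)[X]) (u d : G) : List G := [u ^ 2, W d u m]

def Cm (u d t c : G) : List G :=
  [u * (d * (t⁻¹ * d * t)) * u⁻¹ * (d * (t⁻¹ * d * t))⁻¹, d * (t⁻¹ * d * t) * d⁻¹ * (t⁻¹ * d * t)⁻¹,
    u * t * u * t⁻¹ * u * t⁻¹, c * c * c, t * c⁻¹ * t * c⁻¹, c * d * c⁻¹ * (t * d * t⁻¹ * d⁻¹)⁻¹]

def Sx (v u t c : G) : List G :=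
  [u * (c * (c * (t * v⁻¹ * t⁻¹) * c⁻¹) * c⁻¹) * u⁻¹ * (c * (c * (t * v⁻¹ * t⁻¹) * c⁻¹) * c⁻¹)⁻¹,
    u * (c * (t * v⁻¹ * t⁻¹) * c⁻¹) * u⁻¹ * (c * (t * v⁻¹ * t⁻¹) * c⁻¹)⁻¹,
    u * (c * v * c⁻¹) * (c * (c * (t * v⁻¹ * t⁻¹) * c⁻¹) * c⁻¹ * (c * v * c⁻¹) * u)⁻¹]

noncomputable def Lg (k : ℕ) (m : (ZMod p)[X]) (u d t c : G) : List G := Bg k m u d ++ (Cm u d t c ++ Sx u u t c)
noncomputable def Ls (m : (ZMod p)[X]) (u d t c : G) : List G := Bs m u d ++ (Cm u d t c ++ Sx u u t c)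
noncomputable def L4 (m : (ZMod 2)[X]) (u d t c : G) : List G :=
  B4 m u d ++ (Cm u d t c ++ (Sx u u t c ++ Sx (cj d u 1) u t c))

variable {H : Type*} [Group H] (φ : G →* H)

theorem Lg_map (k : ℕ) (m : (ZMod p)[X]) (u d t c : G) :
    (Lg k m u d t c).map φ = Lg k m (φ u) (φ d) (φ t) (φ c) := by
  simp [Lg, Bg, Cm, Sx, W_map, cj_map]

theorem Ls_map (m : (ZMod p)[X]) (u d t c : G) :
    (Ls m u d t c).map φ = Ls m (φ u) (φ d) (φ t) (φ c) := by
  simp [Ls, Bs, Cm, Sx, W_map, cj_map]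

theorem L4_map (m : (ZMod 2)[X]) (u d t c : G) :
    (L4 m u d t c).map φ = L4 m (φ u) (φ d) (φ t) (φ c) := by
  simp [L4, B4, Cm, Sx, W_map, cj_map]

end rels

section A

variable {G : Type*} [Group G] {F : Type*} [Field F]

theorem comm_of_rel {u c : G} (h : u * c * u⁻¹ * c⁻¹ = 1) : Commute u c := by
  have h1 : u * c * u⁻¹ = c := mul_inv_eq_one.1 h
  exact mul_inv_eq_iff_eq_mul.1 h1

theorem rel_of_comm {u c : G} (h : Commute u c) : u * c * u⁻¹ * c⁻¹ = 1 := by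
  rw [h.eq]; group

/-- from the relations to the data -/
theorem mk_dat {x : F → G} {u d t c : G} {ζ : F} {N : ℕ} {B : Set F} (hζ0 : ζ ≠ 0) (hN : ζ ^ N = -1)
    (hζ : ∀ a : F, a ≠ 0 → ∃ n : ℕ, a = ζ ^ n)
    (hB : ∀ S : AddSubgroup F, (∀ b ∈ B, b ∈ S) → (∀ b ∈ S, ζ ^ 3 * b ∈ S) → S = ⊤)
    (hadd : ∀ a b, x (a + b) = x a * x b) (hd : ∀ a, d * x a * d⁻¹ = x (ζ * a)) (hx1 : x 1 = u)
    (hC : ∀ r ∈ Cm u d t c, r = 1) (hS : ∀ b ∈ B, ∀ r ∈ Sx (x b) u t c, r = 1) : Dat3 x d t c ζ N B := by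
  have hneg : ∀ b, x (-b) = (x b)⁻¹ := Dat3.neg_of_add hadd
  simp only [Cm, List.forall_mem_cons, List.not_mem_nil, false_implies, implies_true, and_true] at hC
  obtain ⟨c1, c2, c3, c4, c5, c6⟩ := hC
  have hS' : ∀ b ∈ B, Commute (x 1) (c * (c * (t * x (-b) * t⁻¹) * c⁻¹) * c⁻¹) ∧
      Commute (x 1) (c * (t * x (-b) * t⁻¹) * c⁻¹) ∧
      x 1 * (c * x b * c⁻¹) = c * (c * (t * x (-b) * t⁻¹) * c⁻¹) * c⁻¹ * (c * x b * c⁻¹) * x 1 := by
    intro b hb
    have h := hS b hb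
    simp only [Sx, List.forall_mem_cons, List.not_mem_nil, false_implies, implies_true, and_true] at h
    obtain ⟨h1, h2, h3⟩ := h
    rw [hneg, hx1]
    exact ⟨comm_of_rel h1, comm_of_rel h2, mul_inv_eq_one.1 h3⟩
  exact
    { hζ0 := hζ0
      hζN := hN
      hζ := hζ
      hB := hB
      hadd := hadd
      hd := hd
      g5 := by rw [hx1]; exact comm_of_rel c1
      g6 := comm_of_rel c2
      g7 := by rw [hx1]; exact mul_inv_eq_one.1 c3
      c3 := c4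
      tc := mul_inv_eq_one.1 c5
      hA := mul_inv_eq_one.1 c6
      s1 := fun b hb => (hS' b hb).1
      s2 := fun b hb => (hS' b hb).2.1
      s3 := fun b hb => (hS' b hb).2.2 }

theorem dat_rels {x : F → G} {d t c : G} {ζ : F} {N : ℕ} {B : Set F} (D : Dat3 x d t c ζ N B) :
    (∀ r ∈ Cm (x 1) d t c, r = 1) ∧ (∀ b ∈ B, ∀ r ∈ Sx (x b) (x 1) t c, r = 1) := by
  constructor
  · simp only [Cm, List.forall_mem_cons, List.not_mem_nil, false_implies, implies_true, and_true]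
    exact ⟨rel_of_comm D.g5, rel_of_comm D.g6, mul_inv_eq_one.2 D.g7, D.c3, mul_inv_eq_one.2 D.tc, mul_inv_eq_one.2 D.hA⟩
  · intro b hb
    have h1 := D.s1 b hb
    have h2 := D.s2 b hb
    have h3 := D.s3 b hb
    rw [D.xneg] at h1 h2 h3
    simp only [Sx, List.forall_mem_cons, List.not_mem_nil, false_implies, implies_true, and_true]
    exact ⟨rel_of_comm h1, rel_of_comm h2, mul_inv_eq_one.2 h3⟩

theorem x_pow {x : F → G} (hadd : ∀ a b, x (a + b) = x a * x b) (a : F) (n : ℕ) : x a ^ n = x (n • a) := by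
  induction n with
  | zero => rw [pow_zero, zero_smul, Dat3.zero_of_add hadd]
  | succ n ih => rw [pow_succ, ih, ← hadd, succ_nsmul]

theorem x_pp {p : ℕ} [CharP F p] {x : F → G} (hadd : ∀ a b, x (a + b) = x a * x b) : x 1 ^ p = 1 := by
  rw [x_pow hadd]
  have : p • (1 : F) = 0 := by rw [nsmul_eq_mul, CharP.cast_eq_zero, zero_mul]
  rw [this, Dat3.zero_of_add hadd]

theorem cj_x {x : F → G} {d : G} {ζ : F} (hd : ∀ a, d * x a * d⁻¹ = x (ζ * a)) : cj d (x 1) 1 = x ζ := by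
  rw [cj_succ, cj_zero, hd, mul_one]

theorem dk_x {x : F → G} {d : G} {ζ : F} (hd : ∀ a, d * x a * d⁻¹ = x (ζ * a)) (k : ℕ) (a : F) :
    d ^ k * x a * (d ^ k)⁻¹ = x (ζ ^ k * a) := by
  induction k generalizing a with
  | zero => simp
  | succ k ih =>
    have e : d ^ (k + 1) * x a * (d ^ (k + 1))⁻¹ = d ^ k * (d * x a * d⁻¹) * (d ^ k)⁻¹ := by
      rw [pow_succ]; group
    rw [e, hd, ih]
    congr 1
    ring

/-! base relations hold -/

theorem base_g {p : ℕ} [hp : Fact p.Prime] [Algebra (ZMod p) F] [CharP F p] {x : F → G} {d : G} {ζ : F}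
    (hadd : ∀ a b, x (a + b) = x a * x b) (hd : ∀ a, d * x a * d⁻¹ = x (ζ * a)) (k : ℕ) (hk : ζ ^ k = 1 + ζ) :
    ∀ r ∈ Bg k (minpoly (ZMod p) ζ) (x 1) d, r = 1 := by
  simp only [Bg, List.forall_mem_cons, List.not_mem_nil, false_implies, implies_true, and_true]
  refine ⟨x_pp hadd, ?_, ?_, ?_⟩
  · rw [cj_x hd]; exact rel_of_comm (Dat3.add_comm' hadd 1 ζ)
  · rw [cj_x hd, dk_x hd, ← hadd, mul_one, hk, mul_inv_cancel]
  · rw [evalW d (x 1) ζ x hadd hd rfl, minpoly.aeval, Dat3.zero_of_add hadd]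

theorem base_s {p : ℕ} [hp : Fact p.Prime] [Algebra (ZMod p) F] [CharP F p] {x : F → G} {d : G} {ζ : F}
    (hadd : ∀ a b, x (a + b) = x a * x b) (hd : ∀ a, d * x a * d⁻¹ = x (ζ * a)) :
    ∀ r ∈ Bs (minpoly (ZMod p) ζ) (x 1) d, r = 1 := by
  simp only [Bs, List.forall_mem_cons, List.not_mem_nil, false_implies, implies_true, and_true]
  refine ⟨x_pp hadd, ?_, ?_⟩
  · rw [cj_x hd]; exact rel_of_comm (Dat3.add_comm' hadd 1 ζ)
  · rw [evalW d (x 1) ζ x hadd hd rfl, minpoly.aeval, Dat3.zero_of_add hadd]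

theorem base_4 [Algebra (ZMod 2) F] [CharP F 2] {x : F → G} {d : G} {ζ : F}
    (hadd : ∀ a b, x (a + b) = x a * x b) (hd : ∀ a, d * x a * d⁻¹ = x (ζ * a)) :
    ∀ r ∈ B4 (minpoly (ZMod 2) ζ) (x 1) d, r = 1 := by
  haveI : Fact (Nat.Prime 2) := ⟨Nat.prime_two⟩
  simp only [B4, List.forall_mem_cons, List.not_mem_nil, false_implies, implies_true, and_true]
  refine ⟨x_pp hadd, ?_⟩
  rw [evalW d (x 1) ζ x hadd hd rfl, minpoly.aeval, Dat3.zero_of_add hadd]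

/-! from base relations to root groups -/

theorem exx_g {p : ℕ} [hp : Fact p.Prime] [Algebra (ZMod p) F] {u d : G} {ζ : F}
    (hs : Function.Surjective (aeval ζ : (ZMod p)[X] →ₐ[ZMod p] F)) (k : ℕ)
    (h : ∀ r ∈ Bg k (minpoly (ZMod p) ζ) u d, r = 1) :
    ∃ x : F → G, (∀ a b, x (a + b) = x a * x b) ∧ (∀ a, d * x a * d⁻¹ = x (ζ * a)) ∧ x 1 = u := by
  simp only [Bg, List.forall_mem_cons, List.not_mem_nil, false_implies, implies_true, and_true] at h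
  obtain ⟨h1, h2, h3, h4⟩ := h
  have hc := comm_gen d u (d ^ k) ((Commute.refl d).pow_left k) (comm_of_rel h2) (mul_inv_eq_one.1 h3)
  obtain ⟨x, hxf, hadd, hg, hx1⟩ := exX d u ζ hs hc h1 h4
  exact ⟨x, hadd, hg, hx1⟩

theorem exx_s {p : ℕ} [hp : Fact p.Prime] [Algebra (ZMod p) F] [FiniteDimensional (ZMod p) F] {u d : G} {ζ : F}
    (hs : Function.Surjective (aeval ζ : (ZMod p)[X] →ₐ[ZMod p] F)) (hfd : Module.finrank (ZMod p) F ≤ 2)
    (h : ∀ r ∈ Bs (minpoly (ZMod p) ζ) u d, r = 1) :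
    ∃ x : F → G, (∀ a b, x (a + b) = x a * x b) ∧ (∀ a, d * x a * d⁻¹ = x (ζ * a)) ∧ x 1 = u := by
  simp only [Bs, List.forall_mem_cons, List.not_mem_nil, false_implies, implies_true, and_true] at h
  obtain ⟨h1, h2, h4⟩ := h
  have hint : IsIntegral (ZMod p) ζ := Algebra.IsIntegral.isIntegral ζ
  have hc := comm_two d u (minpoly (ZMod p) ζ) (minpoly.monic hint) (by
    have e1 := minpoly.natDegree_pos hint
    have e2 := minpoly.natDegree_le (A := ZMod p) ζ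
    omega) h4 (comm_of_rel h2)
  obtain ⟨x, hxf, hadd, hg, hx1⟩ := exX d u ζ hs hc h1 h4
  exact ⟨x, hadd, hg, hx1⟩

theorem exx_4 [Algebra (ZMod 2) F] {u d : G} {ζ : F}
    (hs : Function.Surjective (aeval ζ : (ZMod 2)[X] →ₐ[ZMod 2] F)) (hm : minpoly (ZMod 2) ζ = X ^ 2 + X + 1)
    (hint : IsIntegral (ZMod 2) ζ)
    (h : ∀ r ∈ B4 (minpoly (ZMod 2) ζ) u d, r = 1) :
    ∃ x : F → G, (∀ a b, x (a + b) = x a * x b) ∧ (∀ a, d * x a * d⁻¹ = x (ζ * a)) ∧ x 1 = u := by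
  haveI : Fact (Nat.Prime 2) := ⟨Nat.prime_two⟩
  simp only [B4, List.forall_mem_cons, List.not_mem_nil, false_implies, implies_true, and_true] at h
  obtain ⟨h1, h4⟩ := h
  have hnd : (minpoly (ZMod 2) ζ).natDegree = 2 := by
    rw [hm]; compute_degree!
  have hc2 : Commute u (cj d u 1) := by
    have e0 : (minpoly (ZMod 2) ζ).coeff 0 = 1 := by rw [hm]; simp
    have e1 : (minpoly (ZMod 2) ζ).coeff 1 = 1 := by rw [hm]; simp [coeff_X, coeff_one]
    have e2 : (minpoly (ZMod 2) ζ).coeff 2 = 1 := by rw [hm]; simp [coeff_X, coeff_one]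
    have hv : (1 : ZMod 2).val = 1 := rfl
    have e3 : W d u (minpoly (ZMod 2) ζ) = u * cj d u 1 * cj d u 2 := by
      unfold CfsgLib.Sltwo.W
      rw [hnd]
      simp [CfsgLib.Sltwo.wN, cj_zero, e0, e1, e2, hv]
    rw [e3] at h4
    have q0 : cj d u 1 ^ 2 = 1 := CfsgLib.Sltwo.cj_pow_p d u h1 1
    have q1 : cj d u 2 ^ 2 = 1 := CfsgLib.Sltwo.cj_pow_p d u h1 2
    have q2 : u * cj d u 1 = (cj d u 2)⁻¹ := eq_inv_of_mul_eq_one_left h4
    have q3 : (u * cj d u 1) ^ 2 = 1 := by rw [q2, inv_pow, q1, inv_one]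
    rw [pow_two] at q0 q3 h1
    have i1 : u⁻¹ = u := inv_eq_of_mul_eq_one_right h1
    have i2 : (cj d u 1)⁻¹ = cj d u 1 := inv_eq_of_mul_eq_one_right q0
    have i3 : (u * cj d u 1)⁻¹ = u * cj d u 1 := inv_eq_of_mul_eq_one_right q3
    rw [_root_.mul_inv_rev, i1, i2] at i3
    exact i3.symm
  have hc := comm_two d u (minpoly (ZMod 2) ζ) (minpoly.monic hint) (Or.inr hnd) h4 hc2
  obtain ⟨x, hxf, hadd, hg, hx1⟩ := exX d u ζ hs hc h1 h4
  exact ⟨x, hadd, hg, hx1⟩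

end A

end CfsgLib.Slthree
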