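import Cfsg.Agent.LibSlthree4

/-!
Short presentations of `SL₃(q)`: conclusion.
-/

set_option autoImplicit false
set_option linter.all false

namespace CfsgLib.Slthree

open Polynomial
open CfsgLib.Sltwo (W cj cj_map W_map exX evalW comm_gen comm_two cj_succ cj_zero exists_gen)

theorem ztwo : ∀ a : ZMod 2, a ^ 2 + a + 1 ≠ 0 := by decide

section fld

variable {F : Type*} [Field F] [Fintype F]

theorem surj_one {p : ℕ} [Fact p.Prime] [Algebra (ZMod p) F] {ζ : F} (hζ : ∀ a : F, a ≠ 0 → ∃ n : ℕ, a = ζ ^ n) :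
    Function.Surjective (aeval ζ : (ZMod p)[X] →ₐ[ZMod p] F) := by
  intro y
  by_cases hy : y = 0
  · exact ⟨0, by rw [hy]; simp⟩
  · obtain ⟨n, hn⟩ := hζ y hy
    exact ⟨X ^ n, by rw [map_pow, aeval_X, hn]⟩

theorem surj_cube {p : ℕ} [hp : Fact p.Prime] [Algebra (ZMod p) F] {ζ : F} (hζ0 : ζ ≠ 0)
    (hord : orderOf ζ = Fintype.card F - 1) (hq : Fintype.card F ≠ 4) :
    Function.Surjective (aeval (ζ ^ 3) : (ZMod p)[X] →ₐ[ZMod p] F) := by
  classical
  set K0 := IntermediateField.adjoin (ZMod p) ({ζ ^ 3} : Set F) with hK0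
  have hαK : ζ ^ 3 ∈ K0 := IntermediateField.mem_adjoin_simple_self _ _
  have hc2 : Nat.card F = Nat.card K0 ^ Module.finrank K0 F := Module.natCard_eq_pow_finrank
  have hK1 : 1 < Nat.card K0 := Finite.one_lt_card
  have hFc : Nat.card F = Fintype.card F := Nat.card_eq_fintype_card
  have htop : K0 = ⊤ := by
    by_contra hne'
    have hd : 2 ≤ Module.finrank K0 F := by
      have h0 : Module.finrank K0 F ≠ 0 := Module.finrank_pos.ne'
      have h1 : Module.finrank K0 F ≠ 1 := by
        intro h
        exact hne' (IntermediateField.finrank_eq_one_iff_eq_top.1 h)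
      omega
    set r := Nat.card K0 with hr
    rw [hFc] at hc2
    have hvr : (ζ ^ 3) ^ r = ζ ^ 3 := by
      have h1 := FiniteField.pow_card (⟨ζ ^ 3, hαK⟩ : K0)
      have h2 := congrArg (fun y : K0 => (y : F)) h1
      simpa [hr, Nat.card_eq_fintype_card] using h2
    have h7 : (ζ ^ 3) ^ (r - 1) = 1 := by
      have h8 : (ζ ^ 3) ^ (r - 1) * ζ ^ 3 = ζ ^ 3 := by
        rw [← pow_succ]
        have : r - 1 + 1 = r := by omega
        rw [this, hvr]
      exact mul_right_cancel₀ (pow_ne_zero 3 hζ0) (by rw [h8, one_mul])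
    rw [← pow_mul] at h7
    have h9 := Nat.le_of_dvd (by omega) (orderOf_dvd_of_pow_eq_one h7)
    rw [hord] at h9
    have h10 : r ^ 2 ≤ Fintype.card F := by
      rw [hc2]
      exact Nat.pow_le_pow_right (by omega) hd
    have h11 : r < 3 := by
      by_contra hlt
      have : 3 * r ≤ r * r := Nat.mul_le_mul_right r (by omega)
      have : r ^ 2 = r * r := by ring
      omega
    have h12 : r = 2 := by omega
    rw [h12] at h9 h10
    omega
  intro y
  have hy : y ∈ K0 := by rw [htop]; trivial
  have hint : IsIntegral (ZMod p) (ζ ^ 3) := Algebra.IsIntegral.isIntegral _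
  have h1 : y ∈ K0.toSubalgebra := hy
  rw [hK0, IntermediateField.adjoin_simple_toSubalgebra_of_isAlgebraic hint.isAlgebraic, Algebra.adjoin_singleton_eq_range_aeval] at h1
  exact h1

theorem hB_one {p : ℕ} [hp : Fact p.Prime] [Algebra (ZMod p) F] {ζ : F} (hζ0 : ζ ≠ 0)
    (hord : orderOf ζ = Fintype.card F - 1) (hq : Fintype.card F ≠ 4) (S : AddSubgroup F) (h1 : ∀ b ∈ ({1} : Set F), b ∈ S)
    (h3 : ∀ b ∈ S, ζ ^ 3 * b ∈ S) : S = ⊤ := by
  have hone : (1 : F) ∈ S := h1 1 rfl
  rw [eq_top_iff]
  intro y _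
  obtain ⟨f, rfl⟩ := surj_cube (p := p) hζ0 hord hq y
  induction f using Polynomial.induction_on' with
  | add f g hf hg => rw [map_add]; exact S.add_mem (hf trivial) (hg trivial)
  | monomial n a =>
    rw [← C_mul_X_pow_eq_monomial, map_mul, aeval_C, map_pow, aeval_X]
    have e1 : ∀ b : F, (algebraMap (ZMod p) F a) * b = a.val • b := by
      intro b
      rw [← Algebra.smul_def, ← Nat.cast_smul_eq_nsmul (ZMod p), ZMod.natCast_zmod_val]
    rw [e1]
    apply S.nsmul_mem
    have key : ∀ n : ℕ, (ζ ^ 3) ^ n ∈ S := by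
      intro n
      induction n with
      | zero => rwa [pow_zero]
      | succ n ih => rw [pow_succ']; exact h3 _ ih
    exact key n

end fld

section main

variable {F : Type*} [Field F] [Fintype F]

theorem main (F : Type*) [Field F] [Fintype F] :
    ∃ rels : Finset (FreeGroup (Fin 4)), rels.card ≤ 14 ∧
      Nonempty (PresentedGroup (↑rels : Set (FreeGroup (Fin 4))) ≃* Matrix.SpecialLinearGroup (Fin 3) F) := by
  obtain ⟨ζ, hζ0, hζ, hord⟩ := exists_gen (F := F)
  have hc1 : 1 < Fintype.card F := Fintype.one_lt_card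
  obtain ⟨N, hN'⟩ := hζ (-1) (neg_ne_zero.2 one_ne_zero)
  have hN : ζ ^ N = -1 := hN'.symm
  obtain ⟨p, hp⟩ := CharP.exists F
  haveI := hp
  obtain ⟨n, hpp, hn⟩ := FiniteField.card F p
  haveI : Fact p.Prime := ⟨hpp⟩
  letI : Algebra (ZMod p) F := ZMod.algebra F p
  have hs := surj_one (p := p) hζ
  by_cases hq4 : Fintype.card F = 4
  · -- the field with four elements
    have hp2 : p = 2 := by
      have h1 : p ∣ 4 := by rw [← hq4, hn]; exact dvd_pow_self p n.ne_zero
      have h2 : p ∣ 2 ^ 2 := h1
      exact (Nat.prime_dvd_prime_iff_eq hpp Nat.prime_two).1 (hpp.dvd_of_dvd_pow h2)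
    subst hp2
    have h2 : (2 : F) = 0 := by exact_mod_cast CharP.cast_eq_zero F 2
    have h3 : ζ ^ 3 = 1 := by
      have : (3 : ℕ) = orderOf ζ := by rw [hord, hq4]
      rw [this]; exact pow_orderOf_eq_one ζ
    have hne1 : ζ ≠ 1 := by
      intro h
      rw [h, orderOf_one, hq4] at hord
      omega
    have hq : ζ ^ 2 + ζ + 1 = 0 := by
      have : (ζ - 1) * (ζ ^ 2 + ζ + 1) = 0 := by linear_combination h3
      exact (mul_eq_zero.1 this).resolve_left (sub_ne_zero.2 hne1)
    have hm : minpoly (ZMod 2) ζ = X ^ 2 + X + 1 := by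
      have hmon : (X ^ 2 + X + 1 : (ZMod 2)[X]).Monic := by monicity!
      have hdeg : (X ^ 2 + X + 1 : (ZMod 2)[X]).natDegree = 2 := by compute_degree!
      have hirr : Irreducible (X ^ 2 + X + 1 : (ZMod 2)[X]) := by
        rw [hmon.irreducible_iff_roots_eq_zero_of_degree_le_three (by rw [hdeg]) (by rw [hdeg]; norm_num)]
        apply Multiset.eq_zero_of_forall_notMem
        intro a ha
        have h4 := (mem_roots'.1 ha).2
        simp only [IsRoot.def, eval_add, eval_pow, eval_X, eval_one] at h4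
        exact ztwo a h4
      exact (minpoly.eq_of_irreducible_of_monic hirr (by simpa using hq) hmon).symm
    have hint : IsIntegral (ZMod 2) ζ := Algebra.IsIntegral.isIntegral ζ
    let B : Set F := {1, ζ}
    have hB : ∀ S : AddSubgroup F, (∀ b ∈ B, b ∈ S) → (∀ b ∈ S, ζ ^ 3 * b ∈ S) → S = ⊤ := by
      intro S h1 _
      have g1 : (1 : F) ∈ S := h1 1 (Or.inl rfl)
      have g2 : ζ ∈ S := h1 ζ (Or.inr rfl)
      have key : ∀ n : ℕ, ζ ^ n ∈ S ∧ ζ ^ (n + 1) ∈ S := by
        intro n
        induction n with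
        | zero => exact ⟨by rwa [pow_zero], by rwa [zero_add, pow_one]⟩
        | succ n ih =>
          refine ⟨ih.2, ?_⟩
          have : ζ ^ (n + 1 + 1) = ζ ^ (n + 1) + ζ ^ n := by
            linear_combination ζ ^ n * hq - (ζ ^ (n + 1) + ζ ^ n) * h2
          rw [this]; exact S.add_mem ih.2 ih.1
      rw [eq_top_iff]
      intro y _
      by_cases hy : y = 0
      · rw [hy]; exact S.zero_mem
      · obtain ⟨n, rfl⟩ := hζ y hy
        exact (key n).1
    obtain ⟨rels, hr1, hr2⟩ := assemble hζ0 (L4 (minpoly (ZMod 2) ζ) (FreeGroup.of 0) (FreeGroup.of 1) (FreeGroup.of 2) (FreeGroup.of 3))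
      (by
        intro r hr
        have h1 := List.mem_map_of_mem (f := FreeGroup.lift (gens ζ hζ0)) hr
        rw [L4_map] at h1
        simp only [FreeGroup.lift_apply_of] at h1
        have D := datM ζ hζ0 N hN hζ B hB
        obtain ⟨d1, d2⟩ := dat_rels D
        rcases List.mem_append.1 h1 with h1 | h1
        · exact base_4 (x := M12) (d := MD ζ hζ0) D.hadd D.hd _ h1
        · rcases List.mem_append.1 h1 with h1 | h1
          · exact d1 _ h1
          · rcases List.mem_append.1 h1 with h1 | h1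
            · exact d2 1 (Or.inl rfl) _ h1
            · refine d2 ζ (Or.inr rfl) _ ?_
              have e : cj (gens ζ hζ0 1) (gens ζ hζ0 0) 1 = M12 ζ := cj_x (x := M12) D.hd
              rw [e] at h1
              exact h1) N B (by
        intro G _ ρ hρ
        have hR : ∀ r ∈ L4 (minpoly (ZMod 2) ζ) (ρ (FreeGroup.of 0)) (ρ (FreeGroup.of 1)) (ρ (FreeGroup.of 2)) (ρ (FreeGroup.of 3)), r = 1 := by
          intro r hr
          rw [← L4_map] at hr
          obtain ⟨r', hr', rfl⟩ := List.mem_map.1 hr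
          exact hρ r' hr'
        obtain ⟨x, hadd, hd, hx1⟩ := exx_4 hs hm hint (fun r hr => hR r (List.mem_append_left _ hr))
        refine ⟨x, mk_dat hζ0 hN hζ hB hadd hd hx1 (fun r hr => hR r (List.mem_append_right _ (List.mem_append_left _ hr))) ?_, hx1⟩
        rintro b (rfl | rfl) r hr
        · rw [hx1] at hr
          exact hR r (List.mem_append_right _ (List.mem_append_right _ (List.mem_append_left _ hr)))
        · have e : cj (ρ (FreeGroup.of 1)) (ρ (FreeGroup.of 0)) 1 = x b := by rw [← hx1]; exact cj_x hd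
          rw [← e] at hr
          exact hR r (List.mem_append_right _ (List.mem_append_right _ (List.mem_append_right _ hr))))
    exact ⟨rels, hr1.trans (by simp [L4, B4, Cm, Sx]), hr2⟩
  · have hB := hB_one (p := p) hζ0 hord hq4
    by_cases hq : Fintype.card F ≤ 3
    · have hfd : Module.finrank (ZMod p) F ≤ 2 := by
        have h1 : Nat.card F = Nat.card (ZMod p) ^ Module.finrank (ZMod p) F := Module.natCard_eq_pow_finrank
        rw [Nat.card_eq_fintype_card, Nat.card_eq_fintype_card, ZMod.card] at h1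
        have h3 := hpp.two_le
        by_contra hcon
        have h4 : 2 ^ 3 ≤ p ^ Module.finrank (ZMod p) F :=
          (Nat.pow_le_pow_left h3 3).trans (Nat.pow_le_pow_right (by omega) (by omega))
        omega
      obtain ⟨rels, hr1, hr2⟩ := assemble hζ0 (Ls (minpoly (ZMod p) ζ) (FreeGroup.of 0) (FreeGroup.of 1) (FreeGroup.of 2) (FreeGroup.of 3))
        (by
          intro r hr
          have h1 := List.mem_map_of_mem (f := FreeGroup.lift (gens ζ hζ0)) hr
          rw [Ls_map] at h1
          simp only [FreeGroup.lift_apply_of] at h1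
          have D := datM ζ hζ0 N hN hζ {1} hB
          obtain ⟨d1, d2⟩ := dat_rels D
          rcases List.mem_append.1 h1 with h1 | h1
          · exact base_s (x := M12) (d := MD ζ hζ0) D.hadd D.hd _ h1
          · rcases List.mem_append.1 h1 with h1 | h1
            · exact d1 _ h1
            · exact d2 1 rfl _ h1) N {1} (by
          intro G _ ρ hρ
          have hR : ∀ r ∈ Ls (minpoly (ZMod p) ζ) (ρ (FreeGroup.of 0)) (ρ (FreeGroup.of 1)) (ρ (FreeGroup.of 2)) (ρ (FreeGroup.of 3)), r = 1 := by
            intro r hr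
            rw [← Ls_map] at hr
            obtain ⟨r', hr', rfl⟩ := List.mem_map.1 hr
            exact hρ r' hr'
          obtain ⟨x, hadd, hd, hx1⟩ := exx_s hs hfd (fun r hr => hR r (List.mem_append_left _ hr))
          refine ⟨x, mk_dat hζ0 hN hζ hB hadd hd hx1 (fun r hr => hR r (List.mem_append_right _ (List.mem_append_left _ hr))) ?_, hx1⟩
          rintro b rfl r hr
          rw [hx1] at hr
          exact hR r (List.mem_append_right _ (List.mem_append_right _ hr)))
      exact ⟨rels, hr1.trans (by simp [Ls, Bs, Cm, Sx]), hr2⟩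
    · have hne : (1 : F) + ζ ≠ 0 := by
        intro h
        have h1 : ζ ^ 2 = 1 := by
          have : ζ = -1 := by linear_combination h
          rw [this]; ring
        have := Nat.le_of_dvd (by norm_num) (orderOf_dvd_of_pow_eq_one h1)
        omega
      obtain ⟨k, hk'⟩ := hζ _ hne
      have hk : ζ ^ k = 1 + ζ := hk'.symm
      obtain ⟨rels, hr1, hr2⟩ := assemble hζ0 (Lg k (minpoly (ZMod p) ζ) (FreeGroup.of 0) (FreeGroup.of 1) (FreeGroup.of 2) (FreeGroup.of 3))
        (by
          intro r hr
          have h1 := List.mem_map_of_mem (f := FreeGroup.lift (gens ζ hζ0)) hr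
          rw [Lg_map] at h1
          simp only [FreeGroup.lift_apply_of] at h1
          have D := datM ζ hζ0 N hN hζ {1} hB
          obtain ⟨d1, d2⟩ := dat_rels D
          rcases List.mem_append.1 h1 with h1 | h1
          · exact base_g (x := M12) (d := MD ζ hζ0) D.hadd D.hd k hk _ h1
          · rcases List.mem_append.1 h1 with h1 | h1
            · exact d1 _ h1
            · exact d2 1 rfl _ h1) N {1} (by
          intro G _ ρ hρ
          have hR : ∀ r ∈ Lg k (minpoly (ZMod p) ζ) (ρ (FreeGroup.of 0)) (ρ (FreeGroup.of 1)) (ρ (FreeGroup.of 2)) (ρ (FreeGroup.of 3)), r = 1 := by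
            intro r hr
            rw [← Lg_map] at hr
            obtain ⟨r', hr', rfl⟩ := List.mem_map.1 hr
            exact hρ r' hr'
          obtain ⟨x, hadd, hd, hx1⟩ := exx_g hs k (fun r hr => hR r (List.mem_append_left _ hr))
          refine ⟨x, mk_dat hζ0 hN hζ hB hadd hd hx1 (fun r hr => hR r (List.mem_append_right _ (List.mem_append_left _ hr))) ?_, hx1⟩
          rintro b rfl r hr
          rw [hx1] at hr
          exact hR r (List.mem_append_right _ (List.mem_append_right _ hr)))
      exact ⟨rels, hr1.trans (by simp [Lg, Bg, Cm, Sx]), hr2⟩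

end main

end CfsgLib.Slthree
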