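import Mathlib

/-!
Words for short presentations of two-dimensional linear groups.
-/

set_option autoImplicit false
set_option linter.all false

namespace CfsgLib.Sltwo

open Polynomial

section words

variable {G : Type*} [Group G]

/-- recursive product -/
def wN (A : ℕ → G) (c : ℕ → ℕ) : ℕ → G
  | 0 => 1
  | n + 1 => wN A c n * A n ^ c n

theorem wN_map {H : Type*} [Group H] (φ : G →* H) (A : ℕ → G) (c : ℕ → ℕ) (n : ℕ) :
    φ (wN A c n) = wN (fun i => φ (A i)) c n := by
  induction n with
  | zero => exact map_one φ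
  | succ n ih => simp only [wN]; rw [map_mul, map_pow, ih]

theorem wN_congr (A B : ℕ → G) (c d : ℕ → ℕ) (n : ℕ) (h : ∀ i, A i ^ c i = B i ^ d i) :
    wN A c n = wN B d n := by
  induction n with
  | zero => rfl
  | succ n ih => simp only [wN]; rw [ih, h]

/-- conjugates -/
def cj (g u : G) (i : ℕ) : G := g ^ i * u * (g ^ i)⁻¹

theorem cj_map {H : Type*} [Group H] (φ : G →* H) (g u : G) (i : ℕ) : φ (cj g u i) = cj (φ g) (φ u) i := by
  simp [cj]

theorem cj_succ (g u : G) (i : ℕ) : cj g u (i + 1) = g * cj g u i * g⁻¹ := by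
  unfold cj
  rw [pow_succ']; group

theorem cj_zero (g u : G) : cj g u 0 = u := by simp [cj]

variable {p : ℕ}

/-- the word of a polynomial -/
noncomputable def W (g u : G) (f : (ZMod p)[X]) : G := wN (cj g u) (fun i => (f.coeff i).val) (f.natDegree + 1)

theorem W_map {H : Type*} [Group H] (φ : G →* H) (g u : G) (f : (ZMod p)[X]) : φ (W g u f) = W (φ g) (φ u) f := by
  unfold W
  rw [wN_map]
  simp only [cj_map]

theorem W_eq (g u : G) (f : (ZMod p)[X]) {n : ℕ} (h : f.natDegree + 1 ≤ n) :
    wN (cj g u) (fun i => (f.coeff i).val) n = W g u f := by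
  induction n, h using Nat.le_induction with
  | base => rfl
  | succ n hn ih =>
    simp only [wN]
    rw [ih, coeff_eq_zero_of_natDegree_lt (by omega)]
    simp

variable (g u : G)

theorem comm_wN (hc : ∀ i j, Commute (cj g u i) (cj g u j)) (c : ℕ → ℕ) (n i : ℕ) :
    Commute (cj g u i) (wN (cj g u) c n) := by
  induction n with
  | zero => exact Commute.one_right _
  | succ n ih => exact ih.mul_right ((hc i n).pow_right _)

theorem wN_add (hc : ∀ i j, Commute (cj g u i) (cj g u j)) (c d : ℕ → ℕ) (n : ℕ) :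
    wN (cj g u) (fun i => c i + d i) n = wN (cj g u) c n * wN (cj g u) d n := by
  induction n with
  | zero => simp [wN]
  | succ n ih =>
    simp only [wN]
    rw [ih, pow_add]
    have h1 : wN (cj g u) d n * cj g u n ^ c n = cj g u n ^ c n * wN (cj g u) d n :=
      (((comm_wN g u hc d n n).pow_left (c n)).eq).symm
    calc wN (cj g u) c n * wN (cj g u) d n * (cj g u n ^ c n * cj g u n ^ d n)
        = wN (cj g u) c n * (wN (cj g u) d n * cj g u n ^ c n) * cj g u n ^ d n := by group
      _ = _ := by rw [h1]; group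

theorem wN_mul (hc : ∀ i j, Commute (cj g u i) (cj g u j)) (a : ℕ) (c : ℕ → ℕ) (n : ℕ) :
    wN (cj g u) (fun i => a * c i) n = wN (cj g u) c n ^ a := by
  induction n with
  | zero => simp [wN]
  | succ n ih =>
    simp only [wN]
    rw [ih, mul_comm a, pow_mul, Commute.mul_pow]
    exact (((comm_wN g u hc c n n).pow_left (c n))).symm

theorem wN_shift (c : ℕ → ℕ) (c' : ℕ → ℕ) (h0 : c' 0 = 0) (h1 : ∀ i, c' (i + 1) = c i) (n : ℕ) :
    wN (cj g u) c' (n + 1) = g * wN (cj g u) c n * g⁻¹ := by
  induction n with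
  | zero => simp [wN, h0]
  | succ n ih =>
    have e : wN (cj g u) c' (n + 1 + 1) = wN (cj g u) c' (n + 1) * cj g u (n + 1) ^ c' (n + 1) := rfl
    rw [e, ih, h1, cj_succ]
    simp only [wN]
    rw [_root_.conj_pow]
    group

theorem cj_pow_p (hu : u ^ p = 1) (i : ℕ) : cj g u i ^ p = 1 := by
  unfold cj
  rw [_root_.conj_pow, hu]; group

variable [hp : Fact p.Prime]

theorem W_add (hc : ∀ i j, Commute (cj g u i) (cj g u j)) (hu : u ^ p = 1) (f k : (ZMod p)[X]) :
    W g u (f + k) = W g u f * W g u k := by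
  set n := (f + k).natDegree + f.natDegree + k.natDegree + 1 with hn
  rw [← W_eq g u (f + k) (n := n) (by omega), ← W_eq g u f (n := n) (by omega), ← W_eq g u k (n := n) (by omega),
    ← wN_add g u hc]
  apply wN_congr
  intro i
  rw [coeff_add, ZMod.val_add, ← pow_eq_pow_mod _ (cj_pow_p g u hu i)]

theorem W_zero : W g u (0 : (ZMod p)[X]) = 1 := by
  simp [W, wN]

theorem W_C_mul (hc : ∀ i j, Commute (cj g u i) (cj g u j)) (hu : u ^ p = 1) (a : ZMod p) (f : (ZMod p)[X]) :
    W g u (C a * f) = W g u f ^ a.val := by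
  set n := (C a * f).natDegree + f.natDegree + 1 with hn
  rw [← W_eq g u (C a * f) (n := n) (by omega), ← W_eq g u f (n := n) (by omega), ← wN_mul g u hc]
  apply wN_congr
  intro i
  rw [coeff_C_mul, ZMod.val_mul, ← pow_eq_pow_mod _ (cj_pow_p g u hu i)]

theorem W_X_mul (f : (ZMod p)[X]) : W g u (X * f) = g * W g u f * g⁻¹ := by
  set n := (X * f).natDegree + f.natDegree + 1 with hn
  rw [← W_eq g u (X * f) (n := n + 1) (by omega), ← W_eq g u f (n := n) (by omega)]
  apply wN_shift
  · simp
  · intro i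
    rw [coeff_X_mul]

theorem W_one : W g u (1 : (ZMod p)[X]) = u := by
  have : (1 : ZMod p).val = 1 := ZMod.val_one p
  simp [W, wN, this, cj]

theorem W_X_pow_mul (n : ℕ) (f : (ZMod p)[X]) : W g u (X ^ n * f) = g ^ n * W g u f * (g ^ n)⁻¹ := by
  induction n with
  | zero => simp
  | succ n ih =>
    rw [pow_succ', mul_assoc, W_X_mul, ih, pow_succ']
    group

theorem W_mul_one (hc : ∀ i j, Commute (cj g u i) (cj g u j)) (hu : u ^ p = 1) (m : (ZMod p)[X]) (hm : W g u m = 1)
    (f : (ZMod p)[X]) : W g u (f * m) = 1 := by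
  induction f using Polynomial.induction_on' with
  | add f k hf hk => rw [add_mul, W_add g u hc hu, hf, hk, one_mul]
  | monomial n a =>
    rw [← C_mul_X_pow_eq_monomial, mul_assoc, W_C_mul g u hc hu, W_X_pow_mul, hm]
    simp

/-- from words to a root subgroup -/
theorem exX {F : Type*} [Field F] [Algebra (ZMod p) F] (α : F) (hα : Function.Surjective (aeval α : (ZMod p)[X] →ₐ[ZMod p] F))
    (hc : ∀ i j, Commute (cj g u i) (cj g u j)) (hu : u ^ p = 1) (hm : W g u (minpoly (ZMod p) α) = 1) :
    ∃ x : F → G, (∀ f : (ZMod p)[X], x (aeval α f) = W g u f) ∧ (∀ a b, x (a + b) = x a * x b) ∧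
      (∀ a, g * x a * g⁻¹ = x (α * a)) ∧ x 1 = u := by
  have key : ∀ f k : (ZMod p)[X], aeval α f = aeval α k → W g u f = W g u k := by
    intro f k h
    have h1 : aeval α (f - k) = 0 := by rw [map_sub, h, sub_self]
    obtain ⟨q, hq⟩ := minpoly.dvd (ZMod p) α h1
    have h2 : f = k + q * minpoly (ZMod p) α := by
      rw [mul_comm q, ← hq]; ring
    rw [h2, W_add g u hc hu, W_mul_one g u hc hu _ hm, mul_one]
  have hx : ∀ f : (ZMod p)[X], W g u (Function.surjInv hα (aeval α f)) = W g u f := by
    intro f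
    exact key _ _ (Function.surjInv_eq hα _)
  refine ⟨fun a => W g u (Function.surjInv hα a), hx, ?_, ?_, ?_⟩
  · intro a b
    obtain ⟨f, rfl⟩ := hα a
    obtain ⟨k, rfl⟩ := hα b
    change W g u (Function.surjInv hα (aeval α f + aeval α k)) = W g u (Function.surjInv hα (aeval α f)) *
      W g u (Function.surjInv hα (aeval α k))
    rw [← map_add, hx, hx, hx, W_add g u hc hu]
  · intro a
    obtain ⟨f, rfl⟩ := hα a
    change g * W g u (Function.surjInv hα (aeval α f)) * g⁻¹ = W g u (Function.surjInv hα (α * aeval α f))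
    have h1 : α * aeval α f = aeval α (X * f) := by rw [map_mul, aeval_X]
    rw [h1, hx, hx, W_X_mul]
  · have h1 : (1 : F) = aeval α (1 : (ZMod p)[X]) := (map_one _).symm
    change W g u (Function.surjInv hα 1) = u
    rw [h1, hx, W_one]

/-- evaluation of words in the presence of a root subgroup -/
theorem evalW {F : Type*} [Field F] [Algebra (ZMod p) F] (α : F) (x : F → G) (hadd : ∀ a b, x (a + b) = x a * x b)
    (hg : ∀ a, g * x a * g⁻¹ = x (α * a)) (h1 : x 1 = u) (f : (ZMod p)[X]) : W g u f = x (aeval α f) := by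
  have hcj : ∀ i, cj g u i = x (α ^ i) := by
    intro i
    induction i with
    | zero => rw [cj_zero, pow_zero, h1]
    | succ i ih => rw [cj_succ, ih, hg, pow_succ']
  have hc : ∀ i j, Commute (cj g u i) (cj g u j) := by
    intro i j
    rw [hcj, hcj]
    change x _ * x _ = x _ * x _
    rw [← hadd, ← hadd, add_comm]
  have h0 : x 0 = 1 := by
    have := hadd 0 0
    rw [add_zero] at this
    exact (mul_eq_left.1 this.symm)
  have hn : ∀ (n : ℕ) (a : F), x a ^ n = x (n • a) := by
    intro n a
    induction n with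
    | zero => rw [pow_zero, zero_smul, h0]
    | succ n ih => rw [pow_succ, ih, ← hadd, succ_nsmul]
  have hu : u ^ p = 1 := by
    rw [← h1, hn]
    have : p • (1 : F) = 0 := by
      have h3 : ((p : ZMod p)) • (1 : F) = p • (1 : F) := Nat.cast_smul_eq_nsmul _ _ _
      rw [← h3, CharP.cast_eq_zero, zero_smul]
    rw [this, h0]
  induction f using Polynomial.induction_on' with
  | add f k hf hk => rw [W_add g u hc hu, hf, hk, map_add, hadd]
  | monomial n a =>
    rw [← C_mul_X_pow_eq_monomial, W_C_mul g u hc hu, ← mul_one (X ^ n), W_X_pow_mul, W_one, mul_one]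
    change cj g u n ^ a.val = _
    rw [hcj, hn, map_mul, aeval_C, map_pow, aeval_X]
    congr 1
    rw [← Algebra.smul_def, ← Nat.cast_smul_eq_nsmul (ZMod p), ZMod.natCast_zmod_val]

end words

/-! ### commuting conjugates -/

section comm

variable {G : Type*} [Group G]

theorem cj_shift (g u : G) (i j k : ℕ) (h : Commute (cj g u i) (cj g u j)) : Commute (cj g u (k + i)) (cj g u (k + j)) := by
  have e : ∀ i, cj g u (k + i) = g ^ k * cj g u i * (g ^ k)⁻¹ := by
    intro i
    unfold cj
    rw [pow_add]; group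
  rw [e, e]
  exact (Commute.conj_iff (g ^ k)).2 h

theorem comm_of_zero (g u : G) (h : ∀ n, Commute u (cj g u n)) (i j : ℕ) : Commute (cj g u i) (cj g u j) := by
  have key : ∀ i n, Commute (cj g u i) (cj g u (i + n)) := by
    intro i n
    have := cj_shift g u 0 n i (by rw [cj_zero]; exact h n)
    rwa [add_zero] at this
  rcases le_total i j with h1 | h1
  · obtain ⟨n, rfl⟩ := Nat.exists_eq_add_of_le h1
    exact key i n
  · obtain ⟨n, rfl⟩ := Nat.exists_eq_add_of_le h1
    exact (key j n).symm

theorem comm_gen (g u b : G) (hbg : Commute b g) (h1 : Commute u (cj g u 1)) (h2 : b * u * b⁻¹ = u * cj g u 1) (i j : ℕ) :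
    Commute (cj g u i) (cj g u j) := by
  apply comm_of_zero
  have hb : ∀ i, b * cj g u i * b⁻¹ = cj g u i * cj g u (i + 1) := by
    intro i
    have e1 : b * cj g u i * b⁻¹ = g ^ i * (b * u * b⁻¹) * (g ^ i)⁻¹ := by
      unfold cj
      have h3 : b * g ^ i = g ^ i * b := (hbg.pow_right i).eq
      have h4 : (g ^ i)⁻¹ * b⁻¹ = b⁻¹ * (g ^ i)⁻¹ := by
        rw [← mul_inv_rev, ← mul_inv_rev, h3]
      calc b * (g ^ i * u * (g ^ i)⁻¹) * b⁻¹ = (b * g ^ i) * u * ((g ^ i)⁻¹ * b⁻¹) := by group
        _ = g ^ i * (b * u * b⁻¹) * (g ^ i)⁻¹ := by rw [h3, h4]; group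
    rw [e1, h2]
    have e2 : cj g u (i + 1) = g ^ i * cj g u 1 * (g ^ i)⁻¹ := by
      unfold cj
      rw [pow_add]; group
    rw [e2]
    unfold cj
    group
  have hstep : ∀ n, (∀ j, j ≤ n → Commute u (cj g u j)) → 1 ≤ n → Commute u (cj g u (n + 1)) := by
    intro n hj hn
    have c0 : Commute u (cj g u n) := hj n le_rfl
    have c1 : Commute (cj g u 1) (cj g u n) := by
      have := cj_shift g u 0 (n - 1) 1 (by rw [cj_zero]; exact hj _ (by omega))
      rwa [add_zero, Nat.add_sub_cancel' hn] at this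
    have c2 : Commute (cj g u 1) (cj g u (n + 1)) := by
      have := cj_shift g u 0 n 1 (by rw [cj_zero]; exact c0)
      rwa [add_zero, add_comm 1 n] at this
    have c3 : Commute (u * cj g u 1) (cj g u n * cj g u (n + 1)) := by
      rw [← h2, ← hb n]
      exact (Commute.conj_iff b).2 c0
    have h3 : u * cj g u 1 * (cj g u n * cj g u (n + 1)) = cj g u n * cj g u (n + 1) * (u * cj g u 1) := c3.eq
    have h4 : cj g u n * (u * cj g u (n + 1)) * cj g u 1 = cj g u n * (cj g u (n + 1) * u) * cj g u 1 := by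
      calc cj g u n * (u * cj g u (n + 1)) * cj g u 1 = (cj g u n * u) * (cj g u (n + 1) * cj g u 1) := by group
        _ = (u * cj g u n) * (cj g u 1 * cj g u (n + 1)) := by rw [c0.eq, c2.eq]
        _ = u * (cj g u n * cj g u 1) * cj g u (n + 1) := by group
        _ = u * (cj g u 1 * cj g u n) * cj g u (n + 1) := by rw [c1.eq]
        _ = u * cj g u 1 * (cj g u n * cj g u (n + 1)) := by group
        _ = cj g u n * cj g u (n + 1) * (u * cj g u 1) := h3
        _ = _ := by group
    exact mul_left_cancel (mul_right_cancel h4)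
  intro n
  induction n using Nat.strong_induction_on with
  | _ n ih =>
    rcases n with _ | n
    · rw [cj_zero]
    · rcases n with _ | n
      · exact h1
      · exact hstep (n + 1) (fun j hj => ih j (by omega)) (by omega)

theorem comm_two {p : ℕ} [hp : Fact p.Prime] (g u : G) (m : (ZMod p)[X]) (hm : m.Monic) (hd : m.natDegree = 1 ∨ m.natDegree = 2)
    (hW : W g u m = 1) (h1 : Commute u (cj g u 1)) (i j : ℕ) : Commute (cj g u i) (cj g u j) := by
  have hv : (1 : ZMod p).val = 1 := ZMod.val_one p
  set K := Subgroup.closure ({u, cj g u 1} : Set G) with hK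
  have hu : u ∈ K := Subgroup.subset_closure (by simp)
  have hu1 : cj g u 1 ∈ K := Subgroup.subset_closure (by simp)
  have hcK : ∀ a ∈ K, ∀ b ∈ K, a * b = b * a := by
    intro a ha b hb
    have hcomm : ∀ x ∈ ({u, cj g u 1} : Set G), ∀ y ∈ ({u, cj g u 1} : Set G), x * y = y * x := by
      rintro x (rfl | rfl) y (rfl | rfl)
      · rfl
      · exact h1.eq
      · exact h1.eq.symm
      · rfl
    letI := Subgroup.closureCommGroupOfComm hcomm
    exact congrArg Subtype.val (mul_comm (⟨a, ha⟩ : K) ⟨b, hb⟩)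
  have hg : ∀ a ∈ K, g * a * g⁻¹ ∈ K := by
    intro a ha
    have h2 : cj g u 2 ∈ K := by
      rcases hd with hd | hd
      · -- degree one
        have hl : m.coeff 1 = 1 := by rw [← hd]; exact hm
        have h3 : u ^ (m.coeff 0).val * cj g u 1 = 1 := by
          have : W g u m = u ^ (m.coeff 0).val * cj g u 1 := by
            unfold W
            rw [hd]
            simp [wN, cj_zero, hl, hv]
          rw [← this, hW]
        have h4 : cj g u 1 = (u ^ (m.coeff 0).val)⁻¹ := eq_inv_of_mul_eq_one_right h3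
        have h5 : cj g u 2 = (cj g u 1 ^ (m.coeff 0).val)⁻¹ := by
          have e : cj g u 2 = g * cj g u 1 * g⁻¹ := cj_succ g u 1
          have e1 : cj g u 1 = g * u * g⁻¹ := by rw [cj_succ, cj_zero]
          rw [e]
          conv_lhs => rw [h4]
          rw [e1, _root_.conj_pow]
          group
        rw [h5]
        exact K.inv_mem (K.pow_mem hu1 _)
      · have hl : m.coeff 2 = 1 := by rw [← hd]; exact hm
        have h3 : u ^ (m.coeff 0).val * cj g u 1 ^ (m.coeff 1).val * cj g u 2 = 1 := by
          have : W g u m = u ^ (m.coeff 0).val * cj g u 1 ^ (m.coeff 1).val * cj g u 2 := by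
            unfold W
            rw [hd]
            simp [wN, cj_zero, hl, hv]
          rw [← this, hW]
        rw [eq_inv_of_mul_eq_one_right h3]
        exact K.inv_mem (K.mul_mem (K.pow_mem hu _) (K.pow_mem hu1 _))
    induction ha using Subgroup.closure_induction with
    | mem x hx =>
      rcases hx with rfl | rfl
      · have : g * x * g⁻¹ = cj g x 1 := by rw [cj_succ, cj_zero]
        rw [this]; exact hu1
      · have : g * cj g u 1 * g⁻¹ = cj g u 2 := (cj_succ g u 1).symm
        rw [this]; exact h2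
    | one => simp
    | mul x y hx hy h3 h4 =>
      have : g * (x * y) * g⁻¹ = (g * x * g⁻¹) * (g * y * g⁻¹) := by group
      rw [this]; exact K.mul_mem h3 h4
    | inv x hx h3 =>
      have : g * x⁻¹ * g⁻¹ = (g * x * g⁻¹)⁻¹ := by group
      rw [this]; exact K.inv_mem h3
  have hall : ∀ i, cj g u i ∈ K := by
    intro i
    induction i with
    | zero => rw [cj_zero]; exact hu
    | succ i ih => rw [cj_succ]; exact hg _ ih
  exact hcK _ (hall i) _ (hall j)

end comm

end CfsgLib.Sltwo
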