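import Cfsg.Agent.LibSltwo1

/-!
A bound for the order of a group presented like a two-dimensional linear group.
-/

set_option autoImplicit false
set_option linter.all false

namespace CfsgLib.Sltwo

section bnd

variable {G : Type*} [Group G] {F : Type*} [Field F]

/-- the hypotheses on a root subgroup, torus element and Weyl element -/
structure Dat (x : F → G) (h t : G) (ζ : F) : Prop where
  hζ0 : ζ ≠ 0
  hadd : ∀ a b, x (a + b) = x a * x b
  hh : ∀ a, h * x a * h⁻¹ = x (ζ ^ 2 * a)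
  ht : t * h * t⁻¹ = h⁻¹
  r1 : x 1 * t * x 1 * t⁻¹ * x 1 = t
  rz : x ζ * t * x ζ⁻¹ * t⁻¹ * x ζ = h * t

variable {x : F → G} {h t : G} {ζ : F}

namespace Dat

theorem x0 (D : Dat x h t ζ) : x 0 = 1 := by
  have := D.hadd 0 0
  rw [add_zero] at this
  exact (mul_eq_left.1 this.symm)

theorem xneg (D : Dat x h t ζ) (a : F) : x (-a) = (x a)⁻¹ := by
  apply eq_inv_of_mul_eq_one_left
  rw [← D.hadd, neg_add_cancel, D.x0]

theorem hx (D : Dat x h t ζ) (i : ℤ) (a : F) : h ^ i * x a = x (ζ ^ (2 * i) * a) * h ^ i := by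
  have h1 : ∀ (n : ℕ) (a : F), h ^ n * x a * (h ^ n)⁻¹ = x (ζ ^ (2 * n) * a) := by
    intro n
    induction n with
    | zero => intro a; simp
    | succ n ih =>
      intro a
      calc h ^ (n + 1) * x a * (h ^ (n + 1))⁻¹ = h * (h ^ n * x a * (h ^ n)⁻¹) * h⁻¹ := by
            rw [pow_succ']; group
        _ = x (ζ ^ (2 * (n + 1)) * a) := by
            rw [ih, D.hh]
            congr 1
            ring
  have h2 : h ^ i * x a * (h ^ i)⁻¹ = x (ζ ^ (2 * i) * a) := by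
    obtain ⟨n, rfl | rfl⟩ := i.eq_nat_or_neg
    · rw [zpow_natCast, h1]
      congr 2
      rw [← zpow_natCast]; push_cast; rfl
    · have h3 := h1 n (ζ ^ (2 * (-(n : ℤ))) * a)
      have h4 : ζ ^ (2 * n) * (ζ ^ (2 * (-(n : ℤ))) * a) = a := by
        rw [← mul_assoc, ← zpow_natCast, ← zpow_add₀ D.hζ0]
        push_cast
        have : (2 * (n : ℤ) + 2 * -(n : ℤ)) = 0 := by ring
        rw [this, zpow_zero, one_mul]
      rw [h4] at h3
      rw [← h3, zpow_neg, zpow_natCast]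
      group
  calc h ^ i * x a = (h ^ i * x a * (h ^ i)⁻¹) * h ^ i := by group
    _ = _ := by rw [h2]

theorem tz (D : Dat x h t ζ) (i : ℤ) : t * h ^ i = h ^ (-i) * t := by
  have h1 : t * h ^ i * t⁻¹ = h ^ (-i) := by
    rw [← _root_.conj_zpow, D.ht, inv_zpow, zpow_neg]
  calc t * h ^ i = (t * h ^ i * t⁻¹) * t := by group
    _ = _ := by rw [h1]

theorem hR (D : Dat x h t ζ) (n : ℕ) : x (ζ ^ n) * t * x ((ζ ^ n)⁻¹) * t⁻¹ * x (ζ ^ n) = h ^ n * t := by
  have hst : ∀ n : ℕ, x (ζ ^ n) * t * x ((ζ ^ n)⁻¹) * t⁻¹ * x (ζ ^ n) = h ^ n * t →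
      x (ζ ^ (n + 2)) * t * x ((ζ ^ (n + 2))⁻¹) * t⁻¹ * x (ζ ^ (n + 2)) = h ^ (n + 2) * t := by
    intro n hn
    have e1 : x (ζ ^ (n + 2)) = h * x (ζ ^ n) * h⁻¹ := by rw [D.hh]; congr 1; ring
    have e2 : x ((ζ ^ (n + 2))⁻¹) = h⁻¹ * x ((ζ ^ n)⁻¹) * h := by
      have : h * x ((ζ ^ (n + 2))⁻¹) * h⁻¹ = x ((ζ ^ n)⁻¹) := by
        rw [D.hh]
        congr 1
        have := D.hζ0
        field_simp
        ring
      rw [← this]; group
    have e3 : h⁻¹ * t = t * h := by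
      have := D.tz 1
      rw [zpow_one, zpow_neg, zpow_one] at this
      exact this.symm
    have e4 : t * h⁻¹ = h * t := by
      have := D.tz (-1)
      rw [zpow_neg, zpow_one, neg_neg, zpow_one] at this
      exact this
    have e5 : h * t⁻¹ = t⁻¹ * h⁻¹ := by
      calc h * t⁻¹ = (t * h⁻¹)⁻¹ := by group
        _ = (h * t)⁻¹ := by rw [e4]
        _ = t⁻¹ * h⁻¹ := by group
    rw [e1, e2]
    calc h * x (ζ ^ n) * h⁻¹ * t * (h⁻¹ * x ((ζ ^ n)⁻¹) * h) * t⁻¹ * (h * x (ζ ^ n) * h⁻¹)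
        = h * x (ζ ^ n) * (h⁻¹ * t) * h⁻¹ * x ((ζ ^ n)⁻¹) * (h * t⁻¹) * h * x (ζ ^ n) * h⁻¹ := by group
      _ = h * (x (ζ ^ n) * t * x ((ζ ^ n)⁻¹) * t⁻¹ * x (ζ ^ n)) * h⁻¹ := by rw [e3, e5]; group
      _ = h * h ^ n * (t * h⁻¹) := by rw [hn]; group
      _ = h ^ (n + 2) * t := by rw [e4, ← mul_assoc, pow_add, pow_two, ← pow_succ', pow_succ, mul_assoc (h ^ n)]
  induction n using Nat.twoStepInduction with
  | zero => simpa using D.r1
  | one => simpa using D.rz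
  | more n h1 _ => exact hst n h1

theorem tt (D : Dat x h t ζ) {N : ℕ} (hN : ζ ^ N = -1) : t * t = h ^ (-(N : ℤ)) ∧ h ^ (2 * N) = 1 := by
  have h1 := D.hR N
  rw [hN] at h1
  have h2 : ((-1 : F))⁻¹ = -1 := by rw [inv_neg, inv_one]
  rw [h2, D.xneg] at h1
  have h3 : (x 1)⁻¹ * t * (x 1)⁻¹ * t⁻¹ * (x 1)⁻¹ = t⁻¹ := by
    have := congrArg (fun g => g⁻¹) D.r1
    simp only [_root_.mul_inv_rev, inv_inv] at this
    refine Eq.trans ?_ this
    group
  rw [h3] at h1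
  have h4 : t * t = h ^ (-(N : ℤ)) := by
    rw [zpow_neg, zpow_natCast]
    apply eq_inv_of_mul_eq_one_right
    rw [← mul_assoc, ← h1, inv_mul_cancel]
  refine ⟨h4, ?_⟩
  have h5 : t * (t * t) = (t * t) * t := by group
  rw [h4, D.tz, neg_neg] at h5
  have h6 := mul_right_cancel h5
  rw [zpow_neg, zpow_natCast] at h6
  rw [two_mul, pow_add]
  exact mul_eq_one_iff_eq_inv.2 h6

/-- the two double cosets -/
def P (x : F → G) (h t : G) (y : G) : Prop :=
  (∃ (a : F) (i : ℤ), y = x a * h ^ i) ∨ (∃ (a : F) (i : ℤ) (b : F), y = x a * h ^ i * t * x b)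

theorem P_x (D : Dat x h t ζ) (c : F) {y : G} (hy : P x h t y) : P x h t (y * x c) := by
  rcases hy with ⟨a, i, rfl⟩ | ⟨a, i, b, rfl⟩
  · left
    exact ⟨a + ζ ^ (2 * i) * c, i, by rw [mul_assoc, D.hx, ← mul_assoc, ← D.hadd]⟩
  · right
    exact ⟨a, i, b + c, by rw [D.hadd]; simp only [mul_assoc]⟩

theorem P_h (D : Dat x h t ζ) (j : ℤ) {y : G} (hy : P x h t y) : P x h t (y * h ^ j) := by
  rcases hy with ⟨a, i, rfl⟩ | ⟨a, i, b, rfl⟩
  · left
    exact ⟨a, i + j, by rw [mul_assoc, zpow_add]⟩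
  · right
    refine ⟨a, i - j, ζ ^ (2 * (-j)) * b, ?_⟩
    have h1 : x b * h ^ j = h ^ j * x (ζ ^ (2 * (-j)) * b) := by
      rw [D.hx, ← mul_assoc, ← zpow_add₀ D.hζ0]
      have : 2 * j + 2 * -j = 0 := by ring
      rw [this, zpow_zero, one_mul]
    calc x a * h ^ i * t * x b * h ^ j = x a * h ^ i * t * (x b * h ^ j) := by group
      _ = x a * h ^ i * (t * h ^ j) * x (ζ ^ (2 * (-j)) * b) := by rw [h1]; group
      _ = _ := by rw [D.tz, sub_eq_add_neg, zpow_add]; group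

theorem P_t (D : Dat x h t ζ) (hζ : ∀ a : F, a ≠ 0 → ∃ n : ℕ, a = ζ ^ n) {M : ℤ} (hM : t * t = h ^ M) {y : G}
    (hy : P x h t y) : P x h t (y * t) := by
  rcases hy with ⟨a, i, rfl⟩ | ⟨a, i, b, rfl⟩
  · right
    exact ⟨a, i, 0, by rw [D.x0, mul_one]⟩
  · by_cases hb : b = 0
    · left
      refine ⟨a, i + M, ?_⟩
      rw [hb, D.x0, mul_one, mul_assoc, hM, mul_assoc, zpow_add]
    · obtain ⟨n, hn⟩ := hζ b⁻¹ (inv_ne_zero hb)
      have h1 := D.hR n
      rw [← hn, inv_inv] at h1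
      have h2 : t * x b * t⁻¹ = x (-b⁻¹) * (h ^ n * t) * x (-b⁻¹) := by
        rw [← h1, D.xneg]; group
      have h3 : x a * h ^ i * t * x b * t = x a * h ^ i * x (-b⁻¹) * h ^ (n : ℤ) * t * x (-b⁻¹) * h ^ M := by
        calc x a * h ^ i * t * x b * t = x a * h ^ i * (t * x b * t⁻¹) * (t * t) := by group
          _ = _ := by rw [h2, hM, zpow_natCast]; group
      rw [h3]
      apply D.P_h
      apply D.P_x
      have h4 : P x h t (x a * h ^ i * x (-b⁻¹) * h ^ (n : ℤ)) := D.P_h _ (D.P_x _ (Or.inl ⟨a, i, rfl⟩))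
      have h5 : ∀ {z : G}, (∃ (a : F) (i : ℤ), z = x a * h ^ i) → P x h t (z * t) := by
        rintro z ⟨a, i, rfl⟩
        right
        exact ⟨a, i, 0, by rw [D.x0, mul_one]⟩
      apply h5
      refine ⟨a + ζ ^ (2 * i) * (-b⁻¹), i + n, ?_⟩
      rw [mul_assoc (x a), D.hx, ← mul_assoc, ← D.hadd, mul_assoc, zpow_add]

theorem P_all (D : Dat x h t ζ) (hζ : ∀ a : F, a ≠ 0 → ∃ n : ℕ, a = ζ ^ n) {M : ℤ} (hM : t * t = h ^ M)
    (hgen : Subgroup.closure ({x 1, h, t} : Set G) = ⊤) (y : G) : P x h t y := by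
  have hti : ∀ y, P x h t y → P x h t (y * t⁻¹) := by
    intro y hy
    have h1 : y * t⁻¹ = y * h ^ (-M) * t := by
      rw [zpow_neg, ← hM]; group
    rw [h1]
    exact D.P_t hζ hM (D.P_h _ hy)
  have key : ∀ g : G, (∀ y, P x h t y → P x h t (y * g)) ∧ (∀ y, P x h t y → P x h t (y * g⁻¹)) := by
    intro g
    have hg : g ∈ Subgroup.closure ({x 1, h, t} : Set G) := by rw [hgen]; trivial
    induction hg using Subgroup.closure_induction with
    | mem z hz =>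
      rcases hz with rfl | rfl | rfl
      · refine ⟨fun y hy => D.P_x _ hy, fun y hy => ?_⟩
        rw [← D.xneg]; exact D.P_x _ hy
      · refine ⟨fun y hy => ?_, fun y hy => ?_⟩
        · have := D.P_h 1 hy
          rwa [zpow_one] at this
        · have := D.P_h (-1) hy
          rwa [zpow_neg, zpow_one] at this
      · exact ⟨fun y hy => D.P_t hζ hM hy, fun y hy => hti y hy⟩
    | one => exact ⟨fun y hy => by rwa [mul_one], fun y hy => by rwa [inv_one, mul_one]⟩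
    | mul a b _ _ ha hb =>
      refine ⟨fun y hy => ?_, fun y hy => ?_⟩
      · rw [← mul_assoc]; exact hb.1 _ (ha.1 _ hy)
      · rw [_root_.mul_inv_rev, ← mul_assoc]; exact ha.2 _ (hb.2 _ hy)
    | inv a _ ha => exact ⟨ha.2, fun y hy => by rw [inv_inv]; exact ha.1 _ hy⟩
  have h1 : P x h t 1 := Or.inl ⟨0, 0, by rw [D.x0, zpow_zero, mul_one]⟩
  have := (key y).1 1 h1
  rwa [one_mul] at this

theorem bound [Fintype F] (D : Dat x h t ζ) (hζ : ∀ a : F, a ≠ 0 → ∃ n : ℕ, a = ζ ^ n) {M : ℤ} (hM : t * t = h ^ M)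
    (hgen : Subgroup.closure ({x 1, h, t} : Set G) = ⊤) {M0 : ℕ} (hM0 : 0 < M0) (hh0 : h ^ M0 = 1) :
    Finite G ∧ Nat.card G ≤ Fintype.card F * M0 * (Fintype.card F + 1) := by
  have hz : ∀ i : ℤ, ∃ j : Fin M0, h ^ i = h ^ j.1 := by
    intro i
    have h1 : h ^ (M0 : ℤ) = 1 := by rw [zpow_natCast, hh0]
    have h2 : (0 : ℤ) < M0 := by exact_mod_cast hM0
    have h3 := Int.emod_nonneg i h2.ne'
    have h4 := Int.emod_lt_of_pos i h2
    refine ⟨⟨(i % M0).toNat, by omega⟩, ?_⟩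
    rw [zpow_eq_zpow_emod i h1, ← zpow_natCast]
    congr 1
    exact (Int.toNat_of_nonneg h3).symm
  let f : (F × Fin M0) ⊕ (F × Fin M0 × F) → G := fun s =>
    match s with
    | Sum.inl (a, i) => x a * h ^ i.1
    | Sum.inr (a, i, b) => x a * h ^ i.1 * t * x b
  have hf : Function.Surjective f := by
    intro y
    rcases D.P_all hζ hM hgen y with ⟨a, i, rfl⟩ | ⟨a, i, b, rfl⟩
    · obtain ⟨j, hj⟩ := hz i
      exact ⟨Sum.inl (a, j), by rw [hj]⟩
    · obtain ⟨j, hj⟩ := hz i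
      exact ⟨Sum.inr (a, j, b), by rw [hj]⟩
  refine ⟨Finite.of_surjective f hf, ?_⟩
  have h1 := Nat.card_le_card_of_surjective f hf
  refine h1.trans (le_of_eq ?_)
  rw [Nat.card_eq_fintype_card]
  simp only [Fintype.card_sum, Fintype.card_prod, Fintype.card_fin]
  ring

end Dat

end bnd

end CfsgLib.Sltwo
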