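import Cfsg.Agent.LibSltwo3
import Cfsg.Agent.LibDkH29

/-!
Short presentations of `SL₂(q)` and `PSL₂(q)`.
-/

set_option autoImplicit false
set_option linter.all false

namespace CfsgLib.Sltwo

open Polynomial

abbrev FG := FreeGroup (Fin 3)

/-- the generators of `SL₂` -/
def gens {F : Type*} [Field F] (ζ : F) (hζ : ζ ≠ 0) : Fin 3 → SL F := ![Xm 1, Hm ζ hζ, Tm F]

theorem assemble {F : Type*} [Field F] [Fintype F] {Q : Type*} [Group Q] [Finite Q] (ψ : SL F →* Q) (hψ : Function.Surjective ψ)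
    {ζ : F} (hζ0 : ζ ≠ 0) (hζ : ∀ a : F, a ≠ 0 → ∃ n : ℕ, a = ζ ^ n) (L : List FG)
    (hB : ∀ r ∈ L, ψ (FreeGroup.lift (gens ζ hζ0) r) = 1) (M0 : ℕ) (hM0 : 0 < M0)
    (hA : ∀ (G : Type) [Group G] (ρ : FG →* G), (∀ r ∈ L, ρ r = 1) →
      ∃ x : F → G, Dat x (ρ (FreeGroup.of 1)) (ρ (FreeGroup.of 2)) ζ ∧ x 1 = ρ (FreeGroup.of 0) ∧
        (∃ M : ℤ, ρ (FreeGroup.of 2) * ρ (FreeGroup.of 2) = ρ (FreeGroup.of 1) ^ M) ∧ ρ (FreeGroup.of 1) ^ M0 = 1)
    (hcard : Fintype.card F * M0 * (Fintype.card F + 1) ≤ Nat.card Q) :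
    ∃ rels : Finset FG, rels.card ≤ L.length ∧ Nonempty (PresentedGroup (↑rels : Set FG) ≃* Q) := by
  classical
  refine ⟨L.toFinset, L.toFinset_card_le, ?_⟩
  set rels : Set FG := ↑L.toFinset with hrels
  let ρ : FG →* PresentedGroup rels := PresentedGroup.mk rels
  have hρ : ∀ r ∈ L, ρ r = 1 := by
    intro r hr
    apply (QuotientGroup.eq_one_iff r).2
    apply Subgroup.subset_normalClosure
    simpa [hrels] using hr
  obtain ⟨x, D, hx1, ⟨M, hM⟩, hh0⟩ := hA (PresentedGroup rels) ρ hρ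
  have hgen : Subgroup.closure ({x 1, ρ (FreeGroup.of 1), ρ (FreeGroup.of 2)} : Set (PresentedGroup rels)) = ⊤ := by
    rw [eq_top_iff, ← PresentedGroup.closure_range_of rels, Subgroup.closure_le]
    rintro _ ⟨i, rfl⟩
    fin_cases i
    · exact Subgroup.subset_closure (by rw [hx1]; exact Or.inl rfl)
    · exact Subgroup.subset_closure (Or.inr (Or.inl rfl))
    · exact Subgroup.subset_closure (Or.inr (Or.inr rfl))
  obtain ⟨hfin, hle⟩ := D.bound hζ hM hgen hM0 hh0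
  haveI := hfin
  -- the map
  have hrel : ∀ r ∈ rels, FreeGroup.lift (fun i => ψ (gens ζ hζ0 i)) r = 1 := by
    intro r hr
    have hr' : r ∈ L := by simpa [hrels] using hr
    have h1 : FreeGroup.lift (fun i => ψ (gens ζ hζ0 i)) = ψ.comp (FreeGroup.lift (gens ζ hζ0)) := by
      apply FreeGroup.ext_hom
      intro i
      simp
    rw [h1]
    exact hB r hr'
  let Φ : PresentedGroup rels →* Q := PresentedGroup.toGroup hrel
  have hsurj : Function.Surjective Φ := by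
    rw [← MonoidHom.range_eq_top]
    have h2 : (⊤ : Subgroup (SL F)).map ψ ≤ Φ.range := by
      rw [← gen_top ζ hζ0 hζ, MonoidHom.map_closure, Subgroup.closure_le]
      rintro _ ⟨y, hy, rfl⟩
      rcases hy with rfl | rfl | rfl
      · exact ⟨PresentedGroup.of 0, PresentedGroup.toGroup.of hrel⟩
      · exact ⟨PresentedGroup.of 1, PresentedGroup.toGroup.of hrel⟩
      · exact ⟨PresentedGroup.of 2, PresentedGroup.toGroup.of hrel⟩
    rw [eq_top_iff]
    intro q _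
    obtain ⟨y, rfl⟩ := hψ q
    exact h2 ⟨y, trivial, rfl⟩
  have hbij : Function.Bijective Φ := by
    refine (Nat.bijective_iff_surjective_and_card _).2 ⟨hsurj, ?_⟩
    exact le_antisymm (hle.trans hcard) (Nat.card_le_card_of_surjective Φ hsurj)
  exact ⟨MulEquiv.ofBijective Φ hbij⟩

/-! ### the relations -/

section rels

variable {G : Type*} [Group G] {p : ℕ}

noncomputable def Rgen (k l : ℕ) (m f f1 f2 : (ZMod p)[X]) (u h t : G) : List G :=
  [u ^ p, u * cj (h ^ l) u 1 * u⁻¹ * (cj (h ^ l) u 1)⁻¹, h ^ k * u * (h ^ k)⁻¹ * (u * cj (h ^ l) u 1)⁻¹,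
    W (h ^ l) u m, h * u * h⁻¹ * (W (h ^ l) u f)⁻¹, t * h * t⁻¹ * h, u * t * u * t⁻¹ * u * t⁻¹,
    W (h ^ l) u f1 * t * W (h ^ l) u f2 * t⁻¹ * W (h ^ l) u f1 * (h * t)⁻¹]

noncomputable def Rsm (m f1 f2 : (ZMod p)[X]) (u h t : G) : List G :=
  [u ^ p, u * cj h u 1 * u⁻¹ * (cj h u 1)⁻¹, W h u m, t * h * t⁻¹ * h, u * t * u * t⁻¹ * u * t⁻¹,
    W h u f1 * t * W h u f2 * t⁻¹ * W h u f1 * (h * t)⁻¹]

noncomputable def Rev (k q : ℕ) (m : (ZMod 2)[X]) (u h t : G) : List G :=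
  [u ^ 2, h ^ k * u * (h ^ k)⁻¹ * (u * cj h u 1)⁻¹, W h u m * (h ^ (q - 1))⁻¹, t * h * t⁻¹ * h,
    u * t * u * t⁻¹ * u * t⁻¹]

def Rtwo (u h t : G) : List G := [u ^ 2, h, u * t * u * t⁻¹ * u * t⁻¹]

variable {H : Type*} [Group H] (φ : G →* H)

theorem Rgen_map (k l : ℕ) (m f f1 f2 : (ZMod p)[X]) (u h t : G) :
    (Rgen k l m f f1 f2 u h t).map φ = Rgen k l m f f1 f2 (φ u) (φ h) (φ t) := by
  simp [Rgen, W_map, cj_map]

theorem Rsm_map (m f1 f2 : (ZMod p)[X]) (u h t : G) :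
    (Rsm m f1 f2 u h t).map φ = Rsm m f1 f2 (φ u) (φ h) (φ t) := by
  simp [Rsm, W_map, cj_map]

theorem Rev_map (k q : ℕ) (m : (ZMod 2)[X]) (u h t : G) :
    (Rev k q m u h t).map φ = Rev k q m (φ u) (φ h) (φ t) := by
  simp [Rev, W_map, cj_map]

theorem Rtwo_map (u h t : G) : (Rtwo u h t).map φ = Rtwo (φ u) (φ h) (φ t) := by
  simp [Rtwo]

end rels

/-! ### from relations to root subgroups -/

section A

variable {G : Type*} [Group G] {F : Type*} [Field F]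

theorem comm_of_rel {u c : G} (h : u * c * u⁻¹ * c⁻¹ = 1) : Commute u c := by
  have h1 : u * c * u⁻¹ = c := mul_inv_eq_one.1 h
  exact mul_inv_eq_iff_eq_mul.1 h1

theorem A_gen {p : ℕ} [hp : Fact p.Prime] [Algebra (ZMod p) F] {ζ : F} (hζ0 : ζ ≠ 0) (k l : ℕ) {α : F} (hα : α = ζ ^ (2 * l))
    (hαs : Function.Surjective (aeval α : (ZMod p)[X] →ₐ[ZMod p] F)) (f f1 f2 : (ZMod p)[X]) (hf : aeval α f = ζ ^ 2)
    (hf1 : aeval α f1 = ζ) (hf2 : aeval α f2 = ζ⁻¹) (u h t : G)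
    (hR : ∀ r ∈ Rgen k l (minpoly (ZMod p) α) f f1 f2 u h t, r = 1) :
    ∃ x : F → G, Dat x h t ζ ∧ x 1 = u := by
  simp only [Rgen, List.forall_mem_cons, List.not_mem_nil, false_implies, implies_true, and_true] at hR
  obtain ⟨h1, h2, h3, h4, h5, h6, h7, h8⟩ := hR
  have hc := comm_gen (h ^ l) u (h ^ k) ((Commute.refl h).pow_pow k l) (comm_of_rel h2) (mul_inv_eq_one.1 h3)
  obtain ⟨x, hxf, hadd, hg, hx1⟩ := exX (h ^ l) u α hαs hc h1 h4
  refine ⟨x, ?_, hx1⟩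
  have hu2 : h * u * h⁻¹ = x (ζ ^ 2) := by
    rw [← hf, hxf]
    exact mul_inv_eq_one.1 h5
  refine ⟨hζ0, hadd, ?_, ?_, ?_, ?_⟩
  · -- conjugation by h
    intro a
    obtain ⟨q, rfl⟩ := hαs a
    have hgh : ∀ y : G, h * (h ^ l * y * (h ^ l)⁻¹) * h⁻¹ = h ^ l * (h * y * h⁻¹) * (h ^ l)⁻¹ := by
      intro y
      have e : h * h ^ l = h ^ l * h := ((Commute.refl h).pow_right l).eq
      calc h * (h ^ l * y * (h ^ l)⁻¹) * h⁻¹ = (h * h ^ l) * y * (h * h ^ l)⁻¹ := by group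
        _ = (h ^ l * h) * y * (h ^ l * h)⁻¹ := by rw [e]
        _ = _ := by group
    have hn : ∀ (n : ℕ) (a : F), x a ^ n = x (n • a) := by
      have h0 : x 0 = 1 := by
        have := hadd 0 0
        rw [add_zero] at this
        exact (mul_eq_left.1 this.symm)
      intro n a
      induction n with
      | zero => rw [pow_zero, zero_smul, h0]
      | succ n ih => rw [pow_succ, ih, ← hadd, succ_nsmul]
    have hcn : ∀ n : ℕ, h * x (α ^ n) * h⁻¹ = x (ζ ^ 2 * α ^ n) := by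
      intro n
      induction n with
      | zero => rw [pow_zero, mul_one, hx1, hu2]
      | succ n ih =>
        have e3 : x (α ^ (n + 1)) = h ^ l * x (α ^ n) * (h ^ l)⁻¹ := by rw [hg, pow_succ']
        rw [e3, hgh, ih, hg]
        congr 1
        ring
    induction q using Polynomial.induction_on' with
    | add q r hq hr =>
      rw [map_add, hadd, mul_add, hadd, ← hq, ← hr]; group
    | monomial n a =>
      rw [← C_mul_X_pow_eq_monomial, map_mul, aeval_C, map_pow, aeval_X]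
      have e1 : ∀ b : F, (algebraMap (ZMod p) F a) * b = a.val • b := by
        intro b
        rw [← Algebra.smul_def, ← Nat.cast_smul_eq_nsmul (ZMod p), ZMod.natCast_zmod_val]
      have e2 : ζ ^ 2 * (algebraMap (ZMod p) F a * α ^ n) = a.val • (ζ ^ 2 * α ^ n) := by
        rw [← e1]; ring
      rw [e2, e1, ← hn, ← hn, ← _root_.conj_pow, hcn]
  · exact eq_inv_of_mul_eq_one_left h6
  · rw [hx1]; exact mul_inv_eq_one.1 h7
  · have e1 : x ζ = W (h ^ l) u f1 := by rw [← hxf, hf1]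
    have e2 : x ζ⁻¹ = W (h ^ l) u f2 := by rw [← hxf, hf2]
    rw [e1, e2]
    exact mul_inv_eq_one.1 h8

theorem A_sm {p : ℕ} [hp : Fact p.Prime] [Algebra (ZMod p) F] [FiniteDimensional (ZMod p) F] {ζ : F} (hζ0 : ζ ≠ 0) {α : F}
    (hα : α = ζ ^ 2) (hd : Module.finrank (ZMod p) F ≤ 2)
    (hαs : Function.Surjective (aeval α : (ZMod p)[X] →ₐ[ZMod p] F)) (f1 f2 : (ZMod p)[X])
    (hf1 : aeval α f1 = ζ) (hf2 : aeval α f2 = ζ⁻¹) (u h t : G)
    (hR : ∀ r ∈ Rsm (minpoly (ZMod p) α) f1 f2 u h t, r = 1) :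
    ∃ x : F → G, Dat x h t ζ ∧ x 1 = u := by
  simp only [Rsm, List.forall_mem_cons, List.not_mem_nil, false_implies, implies_true, and_true] at hR
  obtain ⟨h1, h2, h4, h6, h7, h8⟩ := hR
  have hint : IsIntegral (ZMod p) α := Algebra.IsIntegral.isIntegral α
  have hc := comm_two h u (minpoly (ZMod p) α) (minpoly.monic hint) (by
    have e1 := minpoly.natDegree_pos hint
    have e2 := minpoly.natDegree_le (A := ZMod p) α
    omega) h4 (comm_of_rel h2)
  obtain ⟨x, hxf, hadd, hg, hx1⟩ := exX h u α hαs hc h1 h4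
  refine ⟨x, ?_, hx1⟩
  refine ⟨hζ0, hadd, ?_, ?_, ?_, ?_⟩
  · intro a; rw [← hα]; exact hg a
  · exact eq_inv_of_mul_eq_one_left h6
  · rw [hx1]; exact mul_inv_eq_one.1 h7
  · have e1 : x ζ = W h u f1 := by rw [← hxf, hf1]
    have e2 : x ζ⁻¹ = W h u f2 := by rw [← hxf, hf2]
    rw [e1, e2]
    exact mul_inv_eq_one.1 h8

theorem A_ev [Algebra (ZMod 2) F] {ζ : F} (hζ0 : ζ ≠ 0) (k q : ℕ) (hq : Even q) (hq1 : 1 ≤ q) (hζq : ζ ^ q = ζ) {α : F} (hα : α = ζ ^ 2)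
    (hαs : Function.Surjective (aeval α : (ZMod 2)[X] →ₐ[ZMod 2] F)) (u h t : G)
    (hR : ∀ r ∈ Rev k q (minpoly (ZMod 2) α) u h t, r = 1) :
    ∃ x : F → G, Dat x h t ζ ∧ x 1 = u ∧ h ^ (q - 1) = 1 := by
  haveI : Fact (Nat.Prime 2) := ⟨Nat.prime_two⟩
  simp only [Rev, List.forall_mem_cons, List.not_mem_nil, false_implies, implies_true, and_true] at hR
  obtain ⟨h1, h3, h4, h6, h7⟩ := hR
  have h3' := mul_inv_eq_one.1 h3
  have h4' := mul_inv_eq_one.1 h4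
  have hcm : Commute u (cj h u 1) := by
    have e1 : (u * cj h u 1) ^ 2 = 1 := by
      rw [← h3', _root_.conj_pow, h1]; group
    have e2 : cj h u 1 ^ 2 = 1 := cj_pow_p h u h1 1
    rw [pow_two] at e1 e2 h1
    have i1 : u⁻¹ = u := inv_eq_of_mul_eq_one_right h1
    have i2 : (cj h u 1)⁻¹ = cj h u 1 := inv_eq_of_mul_eq_one_right e2
    have i3 : (u * cj h u 1)⁻¹ = u * cj h u 1 := inv_eq_of_mul_eq_one_right e1
    rw [_root_.mul_inv_rev, i1, i2] at i3
    exact i3.symm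
  have hc := comm_gen h u (h ^ k) ((Commute.refl h).pow_left k) hcm h3'
  have hWc : ∀ f g : (ZMod 2)[X], W h u f * W h u g = W h u g * W h u f := by
    intro f g
    rw [← W_add h u hc h1, add_comm, W_add h u hc h1]
  have hQ : ∀ f : (ZMod 2)[X], h ^ k * W h u f * (h ^ k)⁻¹ = W h u f * (h * W h u f * h⁻¹) := by
    intro f
    induction f using Polynomial.induction_on' with
    | add f g hf hg =>
      rw [W_add h u hc h1]
      have e : h ^ k * (W h u f * W h u g) * (h ^ k)⁻¹ = (h ^ k * W h u f * (h ^ k)⁻¹) * (h ^ k * W h u g * (h ^ k)⁻¹) := by group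
      have e' : h * (W h u f * W h u g) * h⁻¹ = (h * W h u f * h⁻¹) * (h * W h u g * h⁻¹) := by group
      rw [e, hf, hg, e', ← W_X_mul h u f, ← W_X_mul h u g]
      have := hWc (X * f) g
      calc W h u f * W h u (X * f) * (W h u g * W h u (X * g)) = W h u f * (W h u (X * f) * W h u g) * W h u (X * g) := by group
        _ = W h u f * (W h u g * W h u (X * f)) * W h u (X * g) := by rw [this]
        _ = _ := by group
    | monomial n a =>
      have e0 : W h u (monomial n a) = cj h u n ^ a.val := by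
        rw [← C_mul_X_pow_eq_monomial, W_C_mul h u hc h1, ← mul_one (X ^ n), W_X_pow_mul, W_one]
        rfl
      have e1 : h ^ k * cj h u n * (h ^ k)⁻¹ = cj h u n * cj h u (n + 1) := by
        have s1 : h ^ k * h ^ n = h ^ n * h ^ k := ((Commute.refl h).pow_pow k n).eq
        calc h ^ k * cj h u n * (h ^ k)⁻¹ = (h ^ k * h ^ n) * u * (h ^ k * h ^ n)⁻¹ := by unfold cj; group
          _ = (h ^ n * h ^ k) * u * (h ^ n * h ^ k)⁻¹ := by rw [s1]
          _ = h ^ n * (h ^ k * u * (h ^ k)⁻¹) * (h ^ n)⁻¹ := by group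
          _ = h ^ n * (u * cj h u 1) * (h ^ n)⁻¹ := by rw [h3']
          _ = _ := by unfold cj; rw [pow_add]; group
      rw [e0, ← _root_.conj_pow, e1, ← _root_.conj_pow, ← cj_succ, Commute.mul_pow (hc n (n + 1))]
  -- the central element
  have hc1 : h ^ (q - 1) = 1 := by
    have e1 := hQ (minpoly (ZMod 2) α)
    rw [h4'] at e1
    have e2 : h ^ k * h ^ (q - 1) * (h ^ k)⁻¹ = h ^ (q - 1) := by
      rw [((Commute.refl h).pow_pow k (q - 1)).eq]; group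
    have e3 : h * h ^ (q - 1) * h⁻¹ = h ^ (q - 1) := by
      rw [((Commute.refl h).pow_right (q - 1)).eq]; group
    rw [e2, e3] at e1
    exact (mul_eq_left.1 e1.symm)
  rw [hc1] at h4'
  obtain ⟨x, hxf, hadd, hg, hx1⟩ := exX h u α hαs hc h1 h4'
  refine ⟨x, ?_, hx1, hc1⟩
  have hh : ∀ a, h * x a * h⁻¹ = x (ζ ^ 2 * a) := by intro a; rw [← hα]; exact hg a
  have ht : t * h * t⁻¹ = h⁻¹ := eq_inv_of_mul_eq_one_left h6
  have r1 : x 1 * t * x 1 * t⁻¹ * x 1 = t := by rw [hx1]; exact mul_inv_eq_one.1 h7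
  refine ⟨hζ0, hadd, hh, ht, r1, ?_⟩
  obtain ⟨j, hj⟩ := hq
  have hpow : ∀ (n : ℕ) (a : F), h ^ n * x a * (h ^ n)⁻¹ = x (ζ ^ (2 * n) * a) := by
    intro n
    induction n with
    | zero => intro a; simp
    | succ n ih =>
      intro a
      calc h ^ (n + 1) * x a * (h ^ (n + 1))⁻¹ = h * (h ^ n * x a * (h ^ n)⁻¹) * h⁻¹ := by
            rw [pow_succ']; group
        _ = x (ζ ^ (2 * (n + 1)) * a) := by
            rw [ih, hh]
            congr 1
            ring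
  have e2j : ζ ^ (2 * j) = ζ := by
    have : 2 * j = q := by omega
    rw [this, hζq]
  have k1 : h ^ j * x 1 * (h ^ j)⁻¹ = x ζ := by rw [hpow, e2j, mul_one]
  have k2 : (h ^ j)⁻¹ * x 1 * h ^ j = x ζ⁻¹ := by
    have : h ^ j * x ζ⁻¹ * (h ^ j)⁻¹ = x 1 := by rw [hpow, e2j, mul_inv_cancel₀ hζ0]
    rw [← this]; group
  have k3 : t * h ^ j * t⁻¹ = (h ^ j)⁻¹ := by
    rw [← _root_.conj_pow, ht, inv_pow]
  have k4 : t * (h ^ j)⁻¹ * t⁻¹ = h ^ j := by
    have := congrArg (fun y => y⁻¹) k3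
    simp only [_root_.mul_inv_rev, inv_inv] at this
    rw [mul_assoc]; exact this
  have k5 : h ^ j * t = t * (h ^ j)⁻¹ := by
    calc h ^ j * t = (t * (h ^ j)⁻¹ * t⁻¹) * t := by rw [k4]
      _ = _ := by group
  have k6 : h ^ j * h ^ j = h := by
    rw [← pow_add]
    have : j + j = (q - 1) + 1 := by omega
    rw [this, pow_succ, hc1, one_mul]
  calc x ζ * t * x ζ⁻¹ * t⁻¹ * x ζ
      = h ^ j * x 1 * (h ^ j)⁻¹ * t * ((h ^ j)⁻¹ * x 1 * h ^ j) * t⁻¹ * (h ^ j * x 1 * (h ^ j)⁻¹) := by rw [k1, k2]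
    _ = h ^ j * x 1 * ((h ^ j)⁻¹ * (t * (h ^ j)⁻¹)) * x 1 * (h ^ j * (t⁻¹ * h ^ j)) * x 1 * (h ^ j)⁻¹ := by group
    _ = h ^ j * x 1 * ((h ^ j)⁻¹ * (h ^ j * t)) * x 1 * (h ^ j * (t⁻¹ * h ^ j)) * x 1 * (h ^ j)⁻¹ := by rw [k5]
    _ = h ^ j * x 1 * t * x 1 * (h ^ j * (t⁻¹ * h ^ j)) * x 1 * (h ^ j)⁻¹ := by group
    _ = h ^ j * x 1 * t * x 1 * t⁻¹ * x 1 * (h ^ j)⁻¹ := by
        have : h ^ j * (t⁻¹ * h ^ j) = t⁻¹ := by
          have := congrArg (fun y => y⁻¹) k5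
          simp only [_root_.mul_inv_rev, inv_inv] at this
          rw [← mul_assoc, ← this]; group
        rw [this]
    _ = h ^ j * t * (h ^ j)⁻¹ := by
        have : h ^ j * x 1 * t * x 1 * t⁻¹ * x 1 * (h ^ j)⁻¹ = h ^ j * (x 1 * t * x 1 * t⁻¹ * x 1) * (h ^ j)⁻¹ := by group
        rw [this, r1]
    _ = h * t := by
        have : t * (h ^ j)⁻¹ = h ^ j * t := k5.symm
        rw [mul_assoc, this, ← mul_assoc, k6]

end A

end CfsgLib.Sltwo
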