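import Cfsg.Agent.LibSltwo4

/-!
Short presentations of `SL₂(q)` and `PSL₂(q)`: conclusion.
-/

set_option autoImplicit false
set_option linter.all false

namespace CfsgLib.Sltwo

open Polynomial

section B

variable {F : Type*} [Field F]

theorem Hl (ζ : F) (hζ0 : ζ ≠ 0) (l : ℕ) (a : F) : Hm ζ hζ0 ^ l * Xm a * (Hm ζ hζ0 ^ l)⁻¹ = Xm (ζ ^ (2 * l) * a) := by
  rw [H_pow, HX]
  congr 1
  ring

theorem X_pow (a : F) (n : ℕ) : Xm a ^ n = Xm (n • a) := by
  induction n with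
  | zero => rw [pow_zero, zero_smul, X_zero]
  | succ n ih => rw [pow_succ, ih, ← X_add, succ_nsmul]

theorem cj1 (ζ : F) (hζ0 : ζ ≠ 0) (l : ℕ) : cj (Hm ζ hζ0 ^ l) (Xm 1) 1 = Xm (ζ ^ (2 * l)) := by
  rw [cj_succ, cj_zero, Hl, mul_one]

theorem X_pp {p : ℕ} [CharP F p] : (Xm (1 : F)) ^ p = 1 := by
  rw [X_pow]
  have : p • (1 : F) = 0 := by rw [nsmul_eq_mul, CharP.cast_eq_zero, zero_mul]
  rw [this, X_zero]

theorem B_gen {p : ℕ} [hp : Fact p.Prime] [Algebra (ZMod p) F] [CharP F p] {ζ : F} (hζ0 : ζ ≠ 0) (k l : ℕ) {α : F} (hα : α = ζ ^ (2 * l))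
    (hkl : ζ ^ (2 * k) = 1 + ζ ^ (2 * l)) (f f1 f2 : (ZMod p)[X]) (hf : aeval α f = ζ ^ 2)
    (hf1 : aeval α f1 = ζ) (hf2 : aeval α f2 = ζ⁻¹) :
    ∀ r ∈ Rgen k l (minpoly (ZMod p) α) f f1 f2 (Xm (1 : F)) (Hm ζ hζ0) (Tm F), r = 1 := by
  have hW : ∀ q : (ZMod p)[X], W (Hm ζ hζ0 ^ l) (Xm (1 : F)) q = Xm (aeval α q) := by
    intro q
    exact evalW _ _ α Xm X_add (by intro a; rw [Hl, hα]) rfl q
  have D := dat ζ hζ0
  simp only [Rgen, List.forall_mem_cons, List.not_mem_nil, false_implies, implies_true, and_true]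
  refine ⟨X_pp, ?_, ?_, ?_, ?_, ?_, ?_, ?_⟩
  · rw [cj1, ← X_add, add_comm, X_add]; group
  · rw [cj1, Hl, ← X_add, mul_one, hkl, mul_inv_cancel]
  · rw [hW, minpoly.aeval, X_zero]
  · rw [hW, hf, D.hh, mul_one, mul_inv_cancel]
  · rw [D.ht, inv_mul_cancel]
  · rw [mul_inv_eq_one]; exact D.r1
  · rw [mul_inv_eq_one, hW, hW, hf1, hf2]; exact D.rz

theorem B_sm {p : ℕ} [hp : Fact p.Prime] [Algebra (ZMod p) F] [CharP F p] {ζ : F} (hζ0 : ζ ≠ 0) {α : F} (hα : α = ζ ^ 2)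
    (f1 f2 : (ZMod p)[X]) (hf1 : aeval α f1 = ζ) (hf2 : aeval α f2 = ζ⁻¹) :
    ∀ r ∈ Rsm (minpoly (ZMod p) α) f1 f2 (Xm (1 : F)) (Hm ζ hζ0) (Tm F), r = 1 := by
  have hW : ∀ q : (ZMod p)[X], W (Hm ζ hζ0) (Xm (1 : F)) q = Xm (aeval α q) := by
    intro q
    exact evalW _ _ α Xm X_add (by intro a; rw [HX, hα]) rfl q
  have D := dat ζ hζ0
  have hc : cj (Hm ζ hζ0) (Xm 1) 1 = Xm (ζ ^ 2) := by
    rw [cj_succ, cj_zero, HX, mul_one]
  simp only [Rsm, List.forall_mem_cons, List.not_mem_nil, false_implies, implies_true, and_true]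
  refine ⟨X_pp, ?_, ?_, ?_, ?_, ?_⟩
  · rw [hc, ← X_add, add_comm, X_add]; group
  · rw [hW, minpoly.aeval, X_zero]
  · rw [D.ht, inv_mul_cancel]
  · rw [mul_inv_eq_one]; exact D.r1
  · rw [mul_inv_eq_one, hW, hW, hf1, hf2]; exact D.rz

theorem B_ev [Algebra (ZMod 2) F] [CharP F 2] {ζ : F} (hζ0 : ζ ≠ 0) (k q : ℕ) {α : F} (hα : α = ζ ^ 2)
    (hk : ζ ^ (2 * k) = 1 + ζ ^ 2) (hq : ζ ^ (q - 1) = 1) :
    ∀ r ∈ Rev k q (minpoly (ZMod 2) α) (Xm (1 : F)) (Hm ζ hζ0) (Tm F), r = 1 := by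
  haveI : Fact (Nat.Prime 2) := ⟨Nat.prime_two⟩
  have hW : ∀ q : (ZMod 2)[X], W (Hm ζ hζ0) (Xm (1 : F)) q = Xm (aeval α q) := by
    intro q
    exact evalW _ _ α Xm X_add (by intro a; rw [HX, hα]) rfl q
  have D := dat ζ hζ0
  have hc : cj (Hm ζ hζ0) (Xm 1) 1 = Xm (ζ ^ 2) := by
    rw [cj_succ, cj_zero, HX, mul_one]
  have hH : Hm ζ hζ0 ^ (q - 1) = 1 := by
    rw [H_pow, ← Hm_one]
    congr 1
  simp only [Rev, List.forall_mem_cons, List.not_mem_nil, false_implies, implies_true, and_true]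
  refine ⟨X_pp, ?_, ?_, ?_, ?_⟩
  · rw [hc, Hl, ← X_add, mul_one, hk, mul_inv_cancel]
  · rw [hW, minpoly.aeval, X_zero, hH]; simp
  · rw [D.ht, inv_mul_cancel]
  · rw [mul_inv_eq_one]; exact D.r1

end B

section fin

variable {F : Type*} [Field F] [Fintype F]

theorem package (hodd : Odd (Fintype.card F)) : ∃ (ζ : F) (hζ0 : ζ ≠ 0), (∀ a : F, a ≠ 0 → ∃ n : ℕ, a = ζ ^ n) ∧
    orderOf ζ = Fintype.card F - 1 ∧ ∃ L : List FG, L.length ≤ 8 ∧ (∀ r ∈ L, FreeGroup.lift (gens ζ hζ0) r = 1) ∧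
      ∀ (G : Type) [Group G] (ρ : FG →* G), (∀ r ∈ L, ρ r = 1) →
        ∃ x : F → G, Dat x (ρ (FreeGroup.of 1)) (ρ (FreeGroup.of 2)) ζ ∧ x 1 = ρ (FreeGroup.of 0) := by
  obtain ⟨ζ, hζ0, hζ, hord⟩ := exists_gen (F := F)
  refine ⟨ζ, hζ0, hζ, hord, ?_⟩
  obtain ⟨p, hp⟩ := CharP.exists F
  haveI := hp
  obtain ⟨n, hpp, hn⟩ := FiniteField.card F p
  haveI : Fact p.Prime := ⟨hpp⟩
  letI : Algebra (ZMod p) F := ZMod.algebra F p
  have hp2 : p ≠ 2 := by
    rintro rfl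
    rw [hn] at hodd
    have : Even (2 ^ (n : ℕ)) := (even_two).pow_of_ne_zero n.ne_zero
    exact (Nat.not_even_iff_odd.2 hodd) this
  by_cases hq : 9 < Fintype.card F
  · obtain ⟨k, l, hkl, hs⟩ := exists_kl (p := p) hp2 hζ0 hζ hord hq
    obtain ⟨f, hf⟩ := hs (ζ ^ 2)
    obtain ⟨f1, hf1⟩ := hs ζ
    obtain ⟨f2, hf2⟩ := hs ζ⁻¹
    refine ⟨Rgen k l (minpoly (ZMod p) (ζ ^ (2 * l))) f f1 f2 (FreeGroup.of 0) (FreeGroup.of 1) (FreeGroup.of 2), by
      simp [Rgen], ?_, ?_⟩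
    · intro r hr
      have h1 := List.mem_map_of_mem (f := FreeGroup.lift (gens ζ hζ0)) hr
      rw [Rgen_map] at h1
      simp only [FreeGroup.lift_apply_of] at h1
      exact B_gen hζ0 k l rfl hkl f f1 f2 hf hf1 hf2 _ h1
    · intro G _ ρ hρ
      apply A_gen hζ0 k l rfl hs f f1 f2 hf hf1 hf2
      intro r hr
      rw [← Rgen_map] at hr
      obtain ⟨r', hr', rfl⟩ := List.mem_map.1 hr
      exact hρ r' hr'
  · have hs := surj_sq (p := p) hζ
    obtain ⟨f1, hf1⟩ := hs ζ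
    obtain ⟨f2, hf2⟩ := hs ζ⁻¹
    have hd : Module.finrank (ZMod p) F ≤ 2 := by
      have h1 : Nat.card F = Nat.card (ZMod p) ^ Module.finrank (ZMod p) F := Module.natCard_eq_pow_finrank
      rw [Nat.card_eq_fintype_card, Nat.card_eq_fintype_card, ZMod.card] at h1
      have h3 : 3 ≤ p := by
        have := hpp.two_le
        omega
      by_contra hcon
      have h4 : 3 ^ 3 ≤ p ^ Module.finrank (ZMod p) F :=
        (Nat.pow_le_pow_left h3 3).trans (Nat.pow_le_pow_right (by omega) (by omega))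
      omega
    refine ⟨Rsm (minpoly (ZMod p) (ζ ^ 2)) f1 f2 (FreeGroup.of 0) (FreeGroup.of 1) (FreeGroup.of 2), by
      simp [Rsm], ?_, ?_⟩
    · intro r hr
      have h1 := List.mem_map_of_mem (f := FreeGroup.lift (gens ζ hζ0)) hr
      rw [Rsm_map] at h1
      simp only [FreeGroup.lift_apply_of] at h1
      exact B_sm hζ0 rfl f1 f2 hf1 hf2 _ h1
    · intro G _ ρ hρ
      apply A_sm hζ0 rfl hd hs f1 f2 hf1 hf2
      intro r hr
      rw [← Rsm_map] at hr
      obtain ⟨r', hr', rfl⟩ := List.mem_map.1 hr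
      exact hρ r' hr'

theorem package_even [hch : CharP F 2] : ∃ (ζ : F) (hζ0 : ζ ≠ 0), (∀ a : F, a ≠ 0 → ∃ n : ℕ, a = ζ ^ n) ∧
    ∃ L : List FG, L.length ≤ 5 ∧ (∀ r ∈ L, FreeGroup.lift (gens ζ hζ0) r = 1) ∧
      ∀ (G : Type) [Group G] (ρ : FG →* G), (∀ r ∈ L, ρ r = 1) →
        ∃ x : F → G, Dat x (ρ (FreeGroup.of 1)) (ρ (FreeGroup.of 2)) ζ ∧ x 1 = ρ (FreeGroup.of 0) ∧
          (∃ M : ℤ, ρ (FreeGroup.of 2) * ρ (FreeGroup.of 2) = ρ (FreeGroup.of 1) ^ M) ∧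
            ρ (FreeGroup.of 1) ^ (Fintype.card F - 1) = 1 := by
  obtain ⟨ζ, hζ0, hζ, hord⟩ := exists_gen (F := F)
  refine ⟨ζ, hζ0, hζ, ?_⟩
  haveI : Fact (Nat.Prime 2) := ⟨Nat.prime_two⟩
  letI : Algebra (ZMod 2) F := ZMod.algebra F 2
  have hc1 : 1 < Fintype.card F := Fintype.one_lt_card
  obtain ⟨n, hpp, hn⟩ := FiniteField.card F 2
  have hneg : (-1 : F) = 1 := by
    have h2 : (2 : F) = 0 := by exact_mod_cast CharP.cast_eq_zero F 2
    linear_combination (-1 : F) * h2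
  have hev : Even (Fintype.card F) := by
    rw [hn]
    exact (even_two).pow_of_ne_zero n.ne_zero
  have hζ1 : ζ ^ (Fintype.card F - 1) = 1 := by rw [← hord]; exact pow_orderOf_eq_one ζ
  have htt : ∀ (G : Type) [Group G] (x : F → G) (h t : G), Dat x h t ζ → ∃ M : ℤ, t * t = h ^ M := by
    intro G _ x h t D
    exact ⟨_, (D.tt (N := 0) (by rw [pow_zero, hneg])).1⟩
  by_cases hq : Fintype.card F = 2
  · have hζe : ζ = 1 := by
      rw [hq] at hord
      exact orderOf_eq_one_iff.1 (by omega)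
    subst hζe
    have hall : ∀ a : F, a = 0 ∨ a = 1 := by
      intro a
      by_cases ha : a = 0
      · exact Or.inl ha
      · obtain ⟨n, hn⟩ := hζ a ha
        right; rw [hn, one_pow]
    have D1 := dat (1 : F) hζ0
    refine ⟨Rtwo (FreeGroup.of 0) (FreeGroup.of 1) (FreeGroup.of 2), by simp [Rtwo], ?_, ?_⟩
    · intro r hr
      have h1 := List.mem_map_of_mem (f := FreeGroup.lift (gens (1 : F) hζ0)) hr
      rw [Rtwo_map] at h1
      simp only [FreeGroup.lift_apply_of] at h1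
      have h2 : ∀ r ∈ Rtwo (Xm (1 : F)) (Hm 1 hζ0) (Tm F), r = 1 := by
        simp only [Rtwo, List.forall_mem_cons, List.not_mem_nil, false_implies, implies_true, and_true]
        exact ⟨X_pp, Hm_one, mul_inv_eq_one.2 D1.r1⟩
      exact h2 _ h1
    · intro G _ ρ hρ
      have h2 : ∀ r ∈ Rtwo (ρ (FreeGroup.of 0)) (ρ (FreeGroup.of 1)) (ρ (FreeGroup.of 2)), r = 1 := by
        intro r hr
        rw [← Rtwo_map] at hr
        obtain ⟨r', hr', rfl⟩ := List.mem_map.1 hr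
        exact hρ r' hr'
      simp only [Rtwo, List.forall_mem_cons, List.not_mem_nil, false_implies, implies_true, and_true] at h2
      obtain ⟨k1, k2, k3⟩ := h2
      classical
      let x : F → G := fun a => if a = 0 then 1 else ρ (FreeGroup.of 0)
      have hx0 : x 0 = 1 := if_pos rfl
      have hx1 : x 1 = ρ (FreeGroup.of 0) := if_neg one_ne_zero
      have h11 : (1 : F) + 1 = 0 := by linear_combination (-1 : F) * hneg
      have D : Dat x (ρ (FreeGroup.of 1)) (ρ (FreeGroup.of 2)) 1 := by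
        refine ⟨one_ne_zero, ?_, ?_, ?_, ?_, ?_⟩
        · intro a b
          rcases hall a with rfl | rfl <;> rcases hall b with rfl | rfl
          · rw [add_zero, hx0, one_mul]
          · rw [zero_add, hx0, one_mul]
          · rw [add_zero, hx0, mul_one]
          · rw [h11, hx0, hx1, ← pow_two, k1]
        · intro a
          rw [k2]; simp
        · rw [k2]; simp
        · rw [hx1]; exact mul_inv_eq_one.1 k3
        · rw [inv_one, hx1, k2, one_mul]; exact mul_inv_eq_one.1 k3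
      exact ⟨x, D, hx1, htt G x _ _ D, by rw [k2, one_pow]⟩
  · have hs := surj_sq (p := 2) hζ
    have h4 : 3 < Fintype.card F := by
      obtain ⟨m, hm⟩ := hev
      omega
    have hne : (1 : F) + ζ ^ 2 ≠ 0 := by
      intro h
      have h1 : ζ ^ 2 = 1 := by linear_combination h + hneg
      have := Nat.le_of_dvd (by norm_num) (orderOf_dvd_of_pow_eq_one h1)
      omega
    obtain ⟨m, hm⟩ := hζ _ hne
    obtain ⟨j, hj⟩ := hev
    have hζq : ζ ^ Fintype.card F = ζ := FiniteField.pow_card ζ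
    have hk : ζ ^ (2 * (m * j)) = 1 + ζ ^ 2 := by
      have e : 2 * (m * j) = Fintype.card F * m := by rw [hj]; ring
      rw [e, pow_mul, hζq, hm]
    refine ⟨Rev (m * j) (Fintype.card F) (minpoly (ZMod 2) (ζ ^ 2)) (FreeGroup.of 0) (FreeGroup.of 1) (FreeGroup.of 2), by
      simp [Rev], ?_, ?_⟩
    · intro r hr
      have h1 := List.mem_map_of_mem (f := FreeGroup.lift (gens ζ hζ0)) hr
      rw [Rev_map] at h1
      simp only [FreeGroup.lift_apply_of] at h1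
      exact B_ev hζ0 (m * j) (Fintype.card F) rfl hk hζ1 _ h1
    · intro G _ ρ hρ
      obtain ⟨x, D, hx1, hh⟩ := A_ev hζ0 (m * j) (Fintype.card F) ⟨j, hj⟩ (by omega) hζq rfl hs
        (ρ (FreeGroup.of 0)) (ρ (FreeGroup.of 1)) (ρ (FreeGroup.of 2)) (by
          intro r hr
          rw [← Rev_map] at hr
          obtain ⟨r', hr', rfl⟩ := List.mem_map.1 hr
          exact hρ r' hr')
      exact ⟨x, D, hx1, htt G x _ _ D, hh⟩

abbrev PSLt (F : Type*) [Field F] := Matrix.ProjectiveSpecialLinearGroup (Fin 2) F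

noncomputable def qm (F : Type*) [Field F] : SL F →* PSLt F := QuotientGroup.mk' (Subgroup.center (SL F))

theorem qm_surj (F : Type*) [Field F] : Function.Surjective (qm F) := QuotientGroup.mk'_surjective _

theorem qm_TT : qm F (Tm F * Tm F) = 1 := by
  apply (QuotientGroup.eq_one_iff _).2
  rw [Subgroup.mem_center_iff]
  intro g
  apply Subtype.ext
  change g.1 * (Tm F * Tm F).1 = (Tm F * Tm F).1 * g.1
  rw [TT]; simp

theorem odd_main (hodd : Odd (Fintype.card F)) :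
    (∃ rels : Finset (FreeGroup (Fin 3)), rels.card ≤ 9 ∧ Nonempty (PresentedGroup (↑rels : Set (FreeGroup (Fin 3))) ≃* SL F)) ∧
    (∃ rels : Finset (FreeGroup (Fin 3)), rels.card ≤ 9 ∧ Nonempty (PresentedGroup (↑rels : Set (FreeGroup (Fin 3))) ≃* PSLt F)) := by
  obtain ⟨ζ, hζ0, hζ, hord, L, hL, hB, hA⟩ := package hodd
  have hc1 : 1 < Fintype.card F := Fintype.one_lt_card
  have hN := neg_one_pow hζ0 hord hodd
  obtain ⟨m, hm⟩ := hodd
  have hm2 : (Fintype.card F - 1) / 2 = m := by omega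
  rw [hm2] at hN
  have hm1 : Fintype.card F - 1 = 2 * m := by omega
  haveI : Finite (SL F) := inferInstance
  haveI : Finite (PSLt F) := Finite.of_surjective _ (qm_surj F)
  constructor
  · obtain ⟨rels, h1, h2⟩ := assemble (MonoidHom.id (SL F)) Function.surjective_id hζ0 hζ L hB (2 * m) (by omega) (by
      intro G _ ρ hρ
      obtain ⟨x, D, hx1⟩ := hA G ρ hρ
      obtain ⟨e1, e2⟩ := D.tt hN
      exact ⟨x, D, hx1, ⟨_, e1⟩, e2⟩) (by
      rw [Cfsg.Agent.H22.card_SL2, hm1, mul_assoc])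
    exact ⟨rels, by omega, h2⟩
  · obtain ⟨rels, h1, h2⟩ := assemble (qm F) (qm_surj F) hζ0 hζ ((FreeGroup.of 2 * FreeGroup.of 2) :: L) (by
      intro r hr
      rcases List.mem_cons.1 hr with rfl | hr
      · rw [map_mul, FreeGroup.lift_apply_of]
        exact qm_TT
      · rw [hB r hr, map_one]) m (by omega) (by
      intro G _ ρ hρ
      obtain ⟨x, D, hx1⟩ := hA G ρ (fun r hr => hρ r (List.mem_cons_of_mem _ hr))
      obtain ⟨e1, e2⟩ := D.tt hN
      refine ⟨x, D, hx1, ⟨_, e1⟩, ?_⟩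
      have e3 : ρ (FreeGroup.of 2) * ρ (FreeGroup.of 2) = 1 := by
        rw [← map_mul]
        exact hρ _ (List.mem_cons_self)
      rw [e3, zpow_neg, zpow_natCast] at e1
      exact inv_eq_one.1 e1.symm) (by
      have h3 := CfsgLib.Dk29.card_PSL (F := F)
      rw [hm1] at h3
      have h4 : Nat.gcd 2 (2 * m) = 2 := Nat.gcd_mul_right_right 2 m ▸ (by simp)
      rw [h4] at h3
      have h5 : Nat.card (PSLt F) = Fintype.card F * (m * (Fintype.card F + 1)) := by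
        have : 2 * Nat.card (PSLt F) = 2 * (Fintype.card F * (m * (Fintype.card F + 1))) := by
          rw [h3]; ring
        omega
      rw [h5, mul_assoc])
    exact ⟨rels, h1.trans (by simp; omega), h2⟩

theorem even_main [hch : CharP F 2] :
    (∃ rels : Finset (FreeGroup (Fin 3)), rels.card ≤ 5 ∧ Nonempty (PresentedGroup (↑rels : Set (FreeGroup (Fin 3))) ≃* SL F)) ∧
    (∃ rels : Finset (FreeGroup (Fin 3)), rels.card ≤ 5 ∧ Nonempty (PresentedGroup (↑rels : Set (FreeGroup (Fin 3))) ≃* PSLt F)) := by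
  obtain ⟨ζ, hζ0, hζ, L, hL, hB, hA⟩ := package_even (F := F)
  have hc1 : 1 < Fintype.card F := Fintype.one_lt_card
  haveI : Finite (SL F) := inferInstance
  haveI : Finite (PSLt F) := Finite.of_surjective _ (qm_surj F)
  constructor
  · obtain ⟨rels, h1, h2⟩ := assemble (MonoidHom.id (SL F)) Function.surjective_id hζ0 hζ L hB (Fintype.card F - 1) (by omega)
      (fun G _ ρ hρ => hA G ρ hρ) (by rw [Cfsg.Agent.H22.card_SL2, mul_assoc])
    exact ⟨rels, by omega, h2⟩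
  · obtain ⟨rels, h1, h2⟩ := assemble (qm F) (qm_surj F) hζ0 hζ L (fun r hr => by rw [hB r hr, map_one])
      (Fintype.card F - 1) (by omega) (fun G _ ρ hρ => hA G ρ hρ) (by
      have h3 := CfsgLib.Dk29.card_PSL (F := F)
      obtain ⟨n, hpp, hn⟩ := FiniteField.card F 2
      have hev : Even (Fintype.card F) := by
        rw [hn]
        exact (even_two).pow_of_ne_zero n.ne_zero
      have h4 : Nat.gcd 2 (Fintype.card F - 1) = 1 := by
        obtain ⟨j, hj⟩ := hev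
        exact Nat.coprime_two_left.2 ⟨j - 1, by omega⟩
      rw [h4, one_mul] at h3
      rw [h3, mul_assoc])
    exact ⟨rels, by omega, h2⟩

theorem main :
    (∃ rels : Finset (FreeGroup (Fin 3)), rels.card ≤ 9 ∧ Nonempty (PresentedGroup (↑rels : Set (FreeGroup (Fin 3))) ≃* Matrix.SpecialLinearGroup (Fin 2) F)) ∧ (∃ rels : Finset (FreeGroup (Fin 3)), rels.card ≤ 9 ∧ Nonempty (PresentedGroup (↑rels : Set (FreeGroup (Fin 3))) ≃* Matrix.ProjectiveSpecialLinearGroup (Fin 2) F)) ∧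
    (CharP F 2 → ∃ rels : Finset (FreeGroup (Fin 3)), rels.card ≤ 5 ∧ Nonempty (PresentedGroup (↑rels : Set (FreeGroup (Fin 3))) ≃* Matrix.ProjectiveSpecialLinearGroup (Fin 2) F)) := by
  have hev : ∀ (h : CharP F 2), (∃ rels : Finset (FreeGroup (Fin 3)), rels.card ≤ 5 ∧ Nonempty (PresentedGroup (↑rels : Set (FreeGroup (Fin 3))) ≃* SL F)) ∧
    (∃ rels : Finset (FreeGroup (Fin 3)), rels.card ≤ 5 ∧ Nonempty (PresentedGroup (↑rels : Set (FreeGroup (Fin 3))) ≃* PSLt F)) := by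
    intro h
    exact even_main
  have h12 : (∃ rels : Finset (FreeGroup (Fin 3)), rels.card ≤ 9 ∧ Nonempty (PresentedGroup (↑rels : Set (FreeGroup (Fin 3))) ≃* SL F)) ∧
    (∃ rels : Finset (FreeGroup (Fin 3)), rels.card ≤ 9 ∧ Nonempty (PresentedGroup (↑rels : Set (FreeGroup (Fin 3))) ≃* PSLt F)) := by
    rcases Nat.even_or_odd (Fintype.card F) with he | ho
    · obtain ⟨p, hp⟩ := CharP.exists F
      haveI := hp
      obtain ⟨n, hpp, hn⟩ := FiniteField.card F p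
      have hp2 : p = 2 := by
        rw [hn] at he
        have h1 : 2 ∣ p ^ (n : ℕ) := he.two_dvd
        exact ((Nat.prime_dvd_prime_iff_eq Nat.prime_two hpp).1 (Nat.prime_two.dvd_of_dvd_pow h1)).symm
      subst hp2
      obtain ⟨⟨r1, h1, h2⟩, ⟨r2, h3, h4⟩⟩ := hev hp
      exact ⟨⟨r1, by omega, h2⟩, ⟨r2, by omega, h4⟩⟩
    · exact odd_main ho
  exact ⟨h12.1, h12.2, fun h => (hev h).2⟩

end fin

end CfsgLib.Sltwo
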