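import Mathlib

set_option autoImplicit false

/-! Subgroups of the symmetric group of index equal to the degree. -/

namespace CfsgLib.Sn29

open Equiv Equiv.Perm MulAction
open scoped Pointwise

section
variable {Ω : Type*} [Fintype Ω] [DecidableEq Ω]

theorem index_stab (x : Ω) : (stabilizer (Perm Ω) x).index = Fintype.card Ω := by
  haveI : IsPretransitive (Perm Ω) Ω := inferInstance
  rw [MulAction.index_stabilizer_of_transitive, Nat.card_eq_fintype_card]

theorem index_set (s : Finset Ω) : (stabilizer (Perm Ω) s).index = (Fintype.card Ω).choose s.card := by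
  haveI : IsPretransitive (Perm Ω) (Set.powersetCard Ω s.card) := Set.powersetCard.isPretransitive
  have h1 : stabilizer (Perm Ω) s = stabilizer (Perm Ω) (⟨s, rfl⟩ : Set.powersetCard Ω s.card) := by
    ext g
    rw [mem_stabilizer_iff, mem_stabilizer_iff]
    constructor
    · intro h
      apply Subtype.ext
      rw [Set.powersetCard.coe_smul]; exact h
    · intro h
      have := congrArg Subtype.val h
      rwa [Set.powersetCard.coe_smul] at this
  rw [h1, MulAction.index_stabilizer_of_transitive, Set.powersetCard.card, Nat.card_eq_fintype_card]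

theorem choose_gt (n : ℕ) (hn : 4 ≤ n) : ∀ k, 2 ≤ k → k + 2 ≤ n → n < n.choose k := by
  induction n, hn using Nat.le_induction with
  | base =>
    intro k h1 h2
    have : k = 2 := by omega
    subst this; decide
  | succ n hn ih =>
    intro k h1 h2
    obtain ⟨j, rfl⟩ : ∃ j, k = j + 1 := ⟨k - 1, by omega⟩
    rw [Nat.choose_succ_succ']
    rcases Nat.lt_or_ge n (j + 1 + 2) with h | h
    · have h3 := ih j (by omega) (by omega)
      have h4 : 0 < n.choose (j + 1) := Nat.choose_pos (by omega)
      omega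
    · have h3 := ih (j + 1) h1 h
      have h4 : 0 < n.choose j := Nat.choose_pos (by omega)
      omega

theorem eq_stab_of_le {H : Subgroup (Perm Ω)} (hH : H.index = Fintype.card Ω) (x : Ω) (h : H ≤ stabilizer (Perm Ω) x) : H = stabilizer (Perm Ω) x := by
  have h1 := Subgroup.relIndex_mul_index h
  rw [index_stab, hH] at h1
  have h0 : 0 < Fintype.card Ω := Fintype.card_pos_iff.mpr ⟨x⟩
  have h2 : H.relIndex (stabilizer (Perm Ω) x) = 1 := by
    exact Nat.eq_of_mul_eq_mul_right h0 (by rw [h1, one_mul])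
  exact le_antisymm h (Subgroup.relIndex_eq_one.mp h2)

/-- intransitive subgroups of index `n` -/
theorem eq_stab_of_not_trans {H : Subgroup (Perm Ω)} (hH : H.index = Fintype.card Ω) (ht : ¬ IsPretransitive H Ω) : ∃ x : Ω, H = stabilizer (Perm Ω) x := by
  have h1 : ∃ x : Ω, orbit H x ≠ Set.univ := by
    by_contra hcon
    push Not at hcon
    apply ht
    refine ⟨fun x y => ?_⟩
    have : y ∈ orbit H x := by rw [hcon x]; trivial
    exact this
  obtain ⟨x, hx⟩ := h1
  classical
  let s : Finset Ω := (orbit H x).toFinset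
  have hxs : x ∈ s := by rw [Set.mem_toFinset]; exact mem_orbit_self x
  have hs : s ≠ Finset.univ := by
    intro h
    apply hx
    rw [← Set.toFinset_univ] at h
    exact Set.toFinset_inj.mp h
  have hsc : s.card < Fintype.card Ω := by
    rw [← Finset.card_univ]
    exact Finset.card_lt_card (Finset.ssubset_univ_iff.mpr hs)
  have hle : H ≤ stabilizer (Perm Ω) s := by
    intro g hg
    rw [mem_stabilizer_iff]
    ext y
    rw [Finset.mem_smul_finset]
    constructor
    · rintro ⟨z, hz, rfl⟩
      rw [Set.mem_toFinset] at hz ⊢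
      have e1 : orbit H ((⟨g, hg⟩ : H) • z) = orbit H z := MulAction.orbit_smul _ _
      have e2 : orbit H z = orbit H x := MulAction.orbit_eq_iff.mpr hz
      rw [← e2, ← e1]
      exact mem_orbit_self ((⟨g, hg⟩ : H) • z)
    · intro hy
      rw [Set.mem_toFinset] at hy
      refine ⟨g⁻¹ • y, ?_, smul_inv_smul _ _⟩
      rw [Set.mem_toFinset]
      have e1 : orbit H ((⟨g⁻¹, inv_mem hg⟩ : H) • y) = orbit H y := MulAction.orbit_smul _ _
      have e2 : orbit H y = orbit H x := MulAction.orbit_eq_iff.mpr hy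
      rw [← e2, ← e1]
      exact mem_orbit_self ((⟨g⁻¹, inv_mem hg⟩ : H) • y)
  have hdvd := Subgroup.index_dvd_of_le hle
  rw [index_set, hH] at hdvd
  have hpos : 0 < Fintype.card Ω := by omega
  have h2 := Nat.le_of_dvd hpos hdvd
  have h3 : 0 < s.card := Finset.card_pos.mpr ⟨x, hxs⟩
  have h4 : s.card = 1 ∨ s.card + 1 = Fintype.card Ω := by
    by_contra hcon
    push Not at hcon
    have := choose_gt (Fintype.card Ω) (by omega) s.card (by omega) (by omega)
    omega
  rcases h4 with h4 | h4
  · obtain ⟨y, hy⟩ := Finset.card_eq_one.mp h4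
    refine ⟨y, eq_stab_of_le hH y (hle.trans ?_)⟩
    intro g hg
    rw [mem_stabilizer_iff, hy] at hg
    rw [mem_stabilizer_iff]
    rw [Finset.smul_finset_singleton] at hg
    exact Finset.singleton_injective hg
  · have h5 : sᶜ.card = 1 := by rw [Finset.card_compl]; omega
    obtain ⟨y, hy⟩ := Finset.card_eq_one.mp h5
    refine ⟨y, eq_stab_of_le hH y (hle.trans ?_)⟩
    intro g hg
    rw [mem_stabilizer_iff] at hg ⊢
    have h6 : g • y ∉ s := by
      intro h7
      rw [← hg] at h7
      have h8 : y ∈ s := (Finset.smul_mem_smul_finset_iff g).mp h7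
      have h9 : y ∈ sᶜ := by rw [hy]; exact Finset.mem_singleton_self y
      exact (Finset.mem_compl.mp h9) h8
    have h7 : g • y ∈ sᶜ := Finset.mem_compl.mpr h6
    rw [hy, Finset.mem_singleton] at h7
    exact h7

/-- point stabilizers are generated by transpositions -/
theorem stab_gen (c : Ω) (g : Perm Ω) (hg : g c = c) : g ∈ Subgroup.closure {s : Perm Ω | s.IsSwap ∧ s c = c} := by
  rw [_root_.mem_closure_isSwap (fun f hf => hf.1)]
  refine ⟨Set.toFinite _, fun x => ?_⟩
  by_cases hx : x = c
  · rw [hx, hg]; exact mem_orbit_self c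
  by_cases hgx : g x = x
  · rw [hgx]; exact mem_orbit_self x
  have hgc : g x ≠ c := by
    intro h
    apply hx
    apply g.injective
    rw [h, hg]
  exact ⟨⟨swap x (g x), Subgroup.subset_closure ⟨⟨x, g x, fun h => hgx h.symm, rfl⟩, swap_apply_of_ne_of_ne (fun h => hx h.symm) (fun h => hgc h.symm)⟩⟩, swap_apply_left x (g x)⟩

end

section
variable {Ω : Type*} [Fintype Ω] [DecidableEq Ω] {Ω' : Type*} [Fintype Ω'] [DecidableEq Ω']

theorem stab_ne_top (h2 : 2 ≤ Fintype.card Ω) (x : Ω) : stabilizer (Perm Ω) x ≠ ⊤ := by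
  intro h
  have := index_stab x
  rw [h, Subgroup.index_top] at this
  omega

theorem comap_stab_of_swap (φ : Perm Ω ≃* Perm Ω') (h2 : 2 ≤ Fintype.card Ω) (hc : Fintype.card Ω = Fintype.card Ω')
    (hφ : ∀ s : Perm Ω, s.IsSwap → (φ s).IsSwap) (c : Ω') :
    ∃ x : Ω, (stabilizer (Perm Ω') c).comap φ.toMonoidHom = stabilizer (Perm Ω) x := by
  haveI : Nontrivial Ω := Fintype.one_lt_card_iff_nontrivial.mp h2
  have hφ' : ∀ s : Perm Ω, (φ s).IsSwap → s.IsSwap := by
    intro s hs
    obtain ⟨a, b, hab⟩ := exists_pair_ne Ω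
    have h0 : (swap a b).IsSwap := ⟨a, b, hab, rfl⟩
    have h1 := hφ _ h0
    have h3 : IsConj (φ (swap a b)) (φ s) := by
      rw [isConj_iff_cycleType_eq, isSwap_iff_cycleType.mp h1, isSwap_iff_cycleType.mp hs]
    rw [isConj_iff] at h3
    obtain ⟨g, hg⟩ := h3
    obtain ⟨g, rfl⟩ := φ.surjective g
    rw [← map_inv, ← map_mul, ← map_mul] at hg
    have h4 := φ.injective hg
    have h5 : IsConj (swap a b) s := isConj_iff.mpr ⟨g, h4⟩
    rw [isConj_iff_cycleType_eq, isSwap_iff_cycleType.mp h0] at h5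
    exact isSwap_iff_cycleType.mpr h5.symm
  set K := (stabilizer (Perm Ω') c).comap φ.toMonoidHom with hK
  have hKi : K.index = Fintype.card Ω := by
    rw [hK, Subgroup.index_comap_of_surjective _ φ.surjective, index_stab, hc]
  apply eq_stab_of_not_trans hKi
  have hcl : Subgroup.closure {s : Perm Ω | s.IsSwap ∧ φ s c = c} = K := by
    apply le_antisymm
    · rw [Subgroup.closure_le]
      rintro s ⟨_, hs⟩
      exact hs
    · intro g hg
      have h1 := stab_gen c (φ g) hg
      have h2' : (Subgroup.closure {s : Perm Ω | s.IsSwap ∧ φ s c = c}).map φ.toMonoidHom = Subgroup.closure {s : Perm Ω' | s.IsSwap ∧ s c = c} := by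
        rw [MonoidHom.map_closure]
        congr 1
        ext s
        constructor
        · rintro ⟨t, ⟨ht1, ht2⟩, rfl⟩
          exact ⟨hφ t ht1, ht2⟩
        · rintro ⟨hs1, hs2⟩
          obtain ⟨t, rfl⟩ := φ.surjective s
          exact ⟨t, ⟨hφ' t hs1, hs2⟩, rfl⟩
      rw [← h2'] at h1
      obtain ⟨g', hg', he⟩ := h1
      have : g' = g := φ.injective he
      rwa [← this]
  intro ht
  rw [← hcl] at ht
  have := _root_.closure_of_isSwap_of_isPretransitive (S := {s : Perm Ω | s.IsSwap ∧ φ s c = c}) (fun s hs => hs.1)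
  rw [hcl] at this
  rw [this, Subgroup.index_top] at hKi
  omega

theorem card_cent_equiv (φ : Perm Ω ≃* Perm Ω') (t : Perm Ω) : Nat.card (Subgroup.centralizer {φ t}) = Nat.card (Subgroup.centralizer {t}) := by
  refine Nat.card_congr (Equiv.subtypeEquiv φ.symm.toEquiv ?_)
  intro g
  rw [Subgroup.mem_centralizer_singleton_iff, Subgroup.mem_centralizer_singleton_iff]
  constructor
  · intro h
    apply φ.injective
    simpa using h
  · intro h
    have := congrArg φ h
    simpa using this

theorem card_cent_invol (t : Perm Ω) (k : ℕ) (hk : 1 ≤ k) (ht : t.cycleType = Multiset.replicate k 2) :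
    2 * k ≤ Fintype.card Ω ∧ Nat.card (Subgroup.centralizer {t}) = (Fintype.card Ω - 2 * k).factorial * 2 ^ k * k.factorial := by
  constructor
  · have := sum_cycleType t
    rw [ht, Multiset.sum_replicate, smul_eq_mul] at this
    have h2 : t.support.card ≤ Fintype.card Ω := by rw [← Finset.card_univ]; exact Finset.card_le_univ _
    omega
  · rw [nat_card_centralizer, ht, Multiset.sum_replicate, Multiset.prod_replicate, smul_eq_mul]
    have h1 : (Multiset.replicate k 2).toFinset = {2} := by
      ext a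
      rw [Multiset.mem_toFinset, Multiset.mem_replicate, Finset.mem_singleton]
      constructor
      · exact fun h => h.2
      · exact fun h => ⟨by omega, h⟩
    rw [h1, Finset.prod_singleton, Multiset.count_replicate_self, mul_comm k 2]

theorem fact_ineq (k : ℕ) (hk : 4 ≤ k) : 2 ^ k * k.factorial < (2 * k - 2).factorial * 2 := by
  induction k, hk using Nat.le_induction with
  | base => decide
  | succ k hk ih =>
    have e1 : 2 * (k + 1) - 2 = (2 * k - 2) + 1 + 1 := by omega
    rw [e1, Nat.factorial_succ, Nat.factorial_succ, pow_succ, Nat.factorial_succ]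
    have e2 : 2 * k - 2 + 1 + 1 = 2 * k := by omega
    have e3 : 2 * k - 2 + 1 = 2 * k - 1 := by omega
    rw [e3]
    have e4 : 2 * k - 1 + 1 = 2 * k := by omega
    rw [e4]
    have h1 : 2 * (k + 1) ≤ 2 * k * (2 * k - 1) := by
      have : 3 ≤ 2 * k - 1 := by omega
      calc 2 * (k + 1) ≤ 2 * k * 3 := by omega
        _ ≤ _ := Nat.mul_le_mul_left _ this
    calc 2 ^ k * 2 * ((k + 1) * k.factorial) = (2 * (k + 1)) * (2 ^ k * k.factorial) := by ring
      _ ≤ (2 * k * (2 * k - 1)) * (2 ^ k * k.factorial) := Nat.mul_le_mul_right _ h1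
      _ < (2 * k * (2 * k - 1)) * ((2 * k - 2).factorial * 2) := Nat.mul_lt_mul_of_pos_left ih (by
          apply Nat.mul_pos <;> omega)
      _ = _ := by ring

theorem fact_eq (n k : ℕ) (hk : 1 ≤ k) (hkn : 2 * k ≤ n) (h : (n - 2 * k).factorial * 2 ^ k * k.factorial = (n - 2 * 1).factorial * 2 ^ 1 * (1 : ℕ).factorial) :
    k = 1 ∨ (k = 3 ∧ n = 6) := by
  obtain ⟨m, rfl⟩ := Nat.exists_eq_add_of_le hkn
  have e1 : 2 * k + m - 2 * k = m := by omega
  rw [e1] at h
  rcases Nat.lt_or_ge k 4 with h4 | h4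
  · interval_cases k
    · left; rfl
    · exfalso
      have e2 : 2 * 2 + m - 2 * 1 = m + 1 + 1 := by omega
      rw [e2, Nat.factorial_succ (m + 1), Nat.factorial_succ m] at h
      have hp := Nat.factorial_pos m
      have h3 : m.factorial * 8 = m.factorial * ((m + 2) * (m + 1) * 2) := by
        have : (2 : ℕ).factorial = 2 := rfl
        rw [this] at h
        simp only [Nat.factorial_one] at h
        nlinarith
      have h5 := Nat.eq_of_mul_eq_mul_left hp h3
      rcases Nat.lt_or_ge m 1 with h6 | h6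
      · interval_cases m; omega
      · nlinarith
    · right
      refine ⟨rfl, ?_⟩
      have e2 : 2 * 3 + m - 2 * 1 = m + 1 + 1 + 1 + 1 := by omega
      rw [e2, Nat.factorial_succ (m + 1 + 1 + 1), Nat.factorial_succ (m + 1 + 1), Nat.factorial_succ (m + 1), Nat.factorial_succ m] at h
      have hp := Nat.factorial_pos m
      have h3 : m.factorial * 48 = m.factorial * ((m + 4) * (m + 3) * (m + 2) * (m + 1) * 2) := by
        have : (3 : ℕ).factorial = 6 := rfl
        rw [this] at h
        simp only [Nat.factorial_one] at h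
        calc m.factorial * 48 = m.factorial * 2 ^ 3 * 6 := by ring
          _ = _ := by rw [h]; ring
      have h5 := Nat.eq_of_mul_eq_mul_left hp h3
      rcases Nat.lt_or_ge m 1 with h6 | h6
      · omega
      · exfalso
        have a1 : 5 * 4 ≤ (m + 4) * (m + 3) := Nat.mul_le_mul (by omega) (by omega)
        have a2 : 5 * 4 * 3 ≤ (m + 4) * (m + 3) * (m + 2) := Nat.mul_le_mul a1 (by omega)
        have a3 : 5 * 4 * 3 * 2 ≤ (m + 4) * (m + 3) * (m + 2) * (m + 1) := Nat.mul_le_mul a2 (by omega)
        omega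
  · exfalso
    have h5 := fact_ineq k h4
    have h6 : m.factorial * (2 * k - 2).factorial ≤ (m + (2 * k - 2)).factorial :=
      Nat.le_of_dvd (Nat.factorial_pos _) (Nat.factorial_mul_factorial_dvd_factorial_add _ _)
    have e2 : 2 * k + m - 2 * 1 = m + (2 * k - 2) := by omega
    rw [e2] at h
    have hp := Nat.factorial_pos m
    have h7 : m.factorial * (2 ^ k * k.factorial) < m.factorial * ((2 * k - 2).factorial * 2) := Nat.mul_lt_mul_of_pos_left h5 hp
    simp only [Nat.factorial_one] at h
    nlinarith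

/-- images of transpositions under isomorphisms of symmetric groups -/
theorem swap_image (φ : Perm Ω ≃* Perm Ω') (hc : Fintype.card Ω = Fintype.card Ω') (t : Perm Ω) (ht : t.IsSwap) :
    (φ t).IsSwap ∨ (Fintype.card Ω = 6 ∧ (φ t).cycleType = Multiset.replicate 3 2) := by
  have h2 : orderOf (φ t) = 2 := by
    rw [MulEquiv.orderOf_eq, ht.orderOf]
  obtain ⟨k, hk⟩ := cycleType_prime_order (σ := φ t) (by rw [h2]; exact Nat.prime_two)
  rw [h2] at hk
  have h3 := card_cent_equiv φ t
  have ht1 : t.cycleType = Multiset.replicate 1 2 := by rw [isSwap_iff_cycleType.mp ht]; rfl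
  obtain ⟨a1, a2⟩ := card_cent_invol t 1 le_rfl ht1
  obtain ⟨b1, b2⟩ := card_cent_invol (φ t) (k + 1) (by omega) hk
  rw [a2, b2, ← hc] at h3
  rcases fact_eq _ _ (by omega) (by rw [hc]; exact b1) h3 with h | ⟨h, h'⟩
  · left
    rw [isSwap_iff_cycleType, hk, h]; rfl
  · right
    exact ⟨h', by rw [hk, h]⟩

end

section
variable {Ω : Type*} [Fintype Ω] [DecidableEq Ω]

/-- the action on cosets is faithful -/
theorem core_bot (H : Subgroup (Perm Ω)) (hH : H.index = Fintype.card Ω) (h5 : 5 ≤ Fintype.card Ω) : H.normalCore = ⊥ := by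
  by_contra hne
  haveI : Nontrivial H.normalCore := (Subgroup.nontrivial_iff_ne_bot _).mpr hne
  have h1 := Equiv.Perm.alternatingGroup_le_of_normal (by rw [Nat.card_eq_fintype_card]; exact h5) (N := H.normalCore) inferInstance
  have h2 : alternatingGroup Ω ≤ H := h1.trans H.normalCore_le
  have h3 := Subgroup.index_dvd_of_le h2
  haveI : Nontrivial Ω := Fintype.one_lt_card_iff_nontrivial.mp (by omega)
  rw [alternatingGroup.index_eq_two, hH] at h3
  have := Nat.le_of_dvd (by norm_num) h3
  omega

/-- the isomorphism given by the coset action -/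
theorem exists_coset_iso (H : Subgroup (Perm Ω)) (hH : H.index = Fintype.card Ω) (h5 : 5 ≤ Fintype.card Ω) :
    ∃ φ : Perm Ω ≃* Perm (Perm Ω ⧸ H), ∀ (g : Perm Ω) (d : Perm Ω ⧸ H), φ g d = g • d := by
  have hinj : Function.Injective (toPermHom (Perm Ω) (Perm Ω ⧸ H)) := by
    rw [← MonoidHom.ker_eq_bot_iff, ← Subgroup.normalCore_eq_ker, core_bot H hH h5]
  have hcard : Nat.card (Perm Ω) = Nat.card (Perm (Perm Ω ⧸ H)) := by
    haveI : Fintype (Perm Ω ⧸ H) := Fintype.ofFinite _
    haveI : DecidableEq (Perm Ω ⧸ H) := Classical.decEq _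
    rw [Nat.card_perm, Nat.card_perm, Nat.card_eq_fintype_card, ← Subgroup.index, hH]
  have hbij : Function.Bijective (toPermHom (Perm Ω) (Perm Ω ⧸ H)) := (Nat.bijective_iff_injective_and_card _).mpr ⟨hinj, hcard⟩
  exact ⟨MulEquiv.ofBijective _ hbij, fun g d => rfl⟩

theorem comap_coset (H : Subgroup (Perm Ω)) (φ : Perm Ω ≃* Perm (Perm Ω ⧸ H)) (hφ : ∀ (g : Perm Ω) (d : Perm Ω ⧸ H), φ g d = g • d) (d : Perm Ω ⧸ H) :
    (stabilizer (Perm (Perm Ω ⧸ H)) d).comap φ.toMonoidHom = stabilizer (Perm Ω) d := by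
  ext g
  rw [Subgroup.mem_comap, mem_stabilizer_iff, mem_stabilizer_iff, ← hφ]
  rfl

theorem stab_one (H : Subgroup (Perm Ω)) : stabilizer (Perm Ω) ((1 : Perm Ω) : Perm Ω ⧸ H) = H := MulAction.stabilizer_quotient H

theorem small_case (H : Subgroup (Perm Ω)) (hH : H.index = Fintype.card Ω) (h5 : Fintype.card Ω < 5) : ¬ IsPretransitive H Ω ∨ Fintype.card Ω = 1 := by
  by_contra hcon
  push Not at hcon
  obtain ⟨ht, h1⟩ := hcon
  have h0 : Fintype.card Ω ≠ 0 := by
    rw [← hH]; exact Subgroup.index_ne_zero_of_finite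
  haveI : Nonempty Ω := Fintype.card_pos_iff.mp (Nat.pos_of_ne_zero h0)
  obtain ⟨x⟩ := (inferInstance : Nonempty Ω)
  have h2 : Nat.card H * Fintype.card Ω = (Fintype.card Ω).factorial := by
    rw [← hH, Subgroup.card_mul_index, Nat.card_perm, Nat.card_eq_fintype_card, hH]
  have h3 : Fintype.card Ω ∣ Nat.card H := by
    have := MulAction.index_stabilizer_of_transitive H x
    rw [Nat.card_eq_fintype_card] at this
    rw [← this]
    exact Subgroup.index_dvd_card _
  obtain ⟨c, hc⟩ := h3
  rw [hc] at h2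
  generalize Fintype.card Ω = n at *
  interval_cases n
  · exact h0 rfl
  · exact h1 rfl
  · have : (2 : ℕ).factorial = 2 := rfl
    omega
  · have : (3 : ℕ).factorial = 6 := rfl
    omega
  · have : (4 : ℕ).factorial = 24 := rfl
    omega

/-- **Subgroups of `S_n` of index `n ≠ 6` are point stabilizers** -/
theorem index_eq (h6 : Fintype.card Ω ≠ 6) (H : Subgroup (Perm Ω)) (hH : H.index = Fintype.card Ω) : ∃ x : Ω, H = stabilizer (Perm Ω) x := by
  rcases Nat.lt_or_ge (Fintype.card Ω) 5 with h5 | h5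
  · rcases small_case H hH h5 with h | h
    · exact eq_stab_of_not_trans hH h
    · obtain ⟨x, hx⟩ := Fintype.card_eq_one_iff.mp h
      refine ⟨x, eq_stab_of_le hH x ?_⟩
      intro g _
      exact hx _
  · obtain ⟨φ, hφ⟩ := exists_coset_iso H hH h5
    haveI : Fintype (Perm Ω ⧸ H) := Fintype.ofFinite _
    haveI : DecidableEq (Perm Ω ⧸ H) := Classical.decEq _
    have hc : Fintype.card Ω = Fintype.card (Perm Ω ⧸ H) := by
      rw [← hH, Subgroup.index, Nat.card_eq_fintype_card]
    obtain ⟨x, hx⟩ := comap_stab_of_swap φ (by omega) hc (fun s hs => by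
      rcases swap_image φ hc s hs with h | ⟨h, _⟩
      · exact h
      · exact absurd h h6) ((1 : Perm Ω) : Perm Ω ⧸ H)
    rw [comap_coset H φ hφ, stab_one] at hx
    exact ⟨x, hx⟩

end

end CfsgLib.Sn29
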