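import Mathlib

set_option autoImplicit false

/-! Combination lemma for spectra of `G × G × G × Z_r^m`. -/

namespace CfsgLib.SpecComb27

theorem lcm_aux {r x y : ℕ} (hr : r.Prime) (hx : ¬ r ∣ x) : Nat.lcm (r * x) y = Nat.lcm (Nat.lcm x y) r := by
  have h1 : r * x = Nat.lcm r x := ((Nat.Prime.coprime_iff_not_dvd hr).mpr hx).lcm_eq_mul.symm
  rw [h1, Nat.lcm_assoc, Nat.lcm_comm r]

theorem exists_orderOf_dvd {G : Type*} [Group G] [Finite G] (g : G) {m : ℕ} (hm : m ∣ orderOf g) :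
    ∃ h : G, orderOf h = m := by
  obtain ⟨r, hr⟩ := hm
  have hr0 : r ≠ 0 := by rintro rfl; exact (orderOf_pos g).ne' (by rw [hr, mul_zero])
  refine ⟨g ^ r, ?_⟩
  rw [orderOf_pow_of_dvd hr0 (by rw [hr]; exact dvd_mul_left _ _), hr]
  exact Nat.mul_div_cancel _ (Nat.pos_of_ne_zero hr0)

/-- data about the element orders of `G` -/
structure Data (G : Type*) [Group G] (p r t : ℕ) : Prop where
  exr : ∃ g : G, orderOf g = r
  main : ∃ τ υ : G, orderOf υ = p ^ t ∧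
    (∀ g : G, ¬ r ∣ orderOf g → (∃ g' : G, orderOf g' = r * orderOf g) ∨ orderOf g ∣ p ^ t * orderOf τ)
  bd : ∃ N : ℕ, N.Coprime p ∧ ∀ g : G, orderOf g ∣ p ^ t * N

variable {G : Type*} [Group G] [Finite G] {p r t : ℕ}

theorem isolated_split (hp : p.Prime) (N : ℕ) (hN0 : N ≠ 0) (τ υ : G)
    (hυ : orderOf υ = p ^ t) (hN : N ∣ p ^ t * orderOf τ)
    (hb : ∃ B : ℕ, B.Coprime p ∧ N ∣ p ^ t * B) :
    ∃ (u M : ℕ) (x y : G), N = p ^ u * M ∧ M.Coprime p ∧ u ≤ t ∧ orderOf x = M ∧ orderOf y = p ^ u := by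
  obtain ⟨u, M, hM, hNM⟩ := Nat.exists_eq_pow_mul_and_not_dvd hN0 p hp.one_lt.ne'
  have hMp : M.Coprime p := (Nat.coprime_comm.mp ((Nat.Prime.coprime_iff_not_dvd hp).mpr hM))
  obtain ⟨B, hB, hNB⟩ := hb
  have hu : p ^ u ∣ p ^ t := by
    have h1 : p ^ u ∣ p ^ t * B := (Dvd.intro _ hNM.symm).trans hNB
    exact Nat.Coprime.dvd_of_dvd_mul_right (Nat.Coprime.pow_left _ hB.symm) h1
  have hMτ : M ∣ orderOf τ := by
    have h1 : M ∣ p ^ t * orderOf τ := (Dvd.intro_left _ hNM.symm).trans hN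
    exact Nat.Coprime.dvd_of_dvd_mul_left (Nat.Coprime.pow_right _ hMp) h1
  obtain ⟨x, hx⟩ := exists_orderOf_dvd τ hMτ
  obtain ⟨y, hy⟩ := exists_orderOf_dvd υ (m := p ^ u) (by rw [hυ]; exact hu)
  exact ⟨u, M, x, y, hNM, hMp, (Nat.pow_dvd_pow_iff_le_right hp.one_lt).1 hu, hx, hy⟩

theorem triple (D : Data G p r t) (hp : p.Prime) (hr : r.Prime) (a b c : G) :
    ∃ a' b' c' : G,
      (orderOf a').lcm ((orderOf b').lcm (orderOf c')) = ((orderOf a).lcm ((orderOf b).lcm (orderOf c))).lcm r := by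
  obtain ⟨τ, υ, hυ, hiso⟩ := D.main
  have hbd := D.bd
  by_cases hra : r ∣ orderOf a
  · exact ⟨a, b, c, (Nat.lcm_eq_left (hra.trans (Nat.dvd_lcm_left _ _))).symm⟩
  by_cases hrb : r ∣ orderOf b
  · exact ⟨a, b, c, (Nat.lcm_eq_left ((hrb.trans (Nat.dvd_lcm_left _ _)).trans (Nat.dvd_lcm_right _ _))).symm⟩
  by_cases hrc : r ∣ orderOf c
  · exact ⟨a, b, c, (Nat.lcm_eq_left ((hrc.trans (Nat.dvd_lcm_right _ _)).trans (Nat.dvd_lcm_right _ _))).symm⟩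
  rcases hiso a hra with ⟨a', ha'⟩ | ha
  · exact ⟨a', b, c, by rw [ha', lcm_aux hr hra]⟩
  rcases hiso b hrb with ⟨b', hb'⟩ | hb
  · exact ⟨a, b', c, by rw [hb', lcm_aux hr hrb, ← Nat.lcm_assoc]⟩
  rcases hiso c hrc with ⟨c', hc'⟩ | hc
  · refine ⟨a, b, c', ?_⟩
    rw [hc', Nat.lcm_comm (orderOf b), lcm_aux hr hrc, ← Nat.lcm_assoc, Nat.lcm_comm (orderOf c)]
  obtain ⟨B, hB, hBg⟩ := hbd
  obtain ⟨g, hg⟩ := D.exr
  set N := (orderOf a).lcm ((orderOf b).lcm (orderOf c)) with hNdef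
  have hN0 : N ≠ 0 := Nat.lcm_ne_zero (orderOf_pos a).ne' (Nat.lcm_ne_zero (orderOf_pos b).ne' (orderOf_pos c).ne')
  obtain ⟨u, M, x, y, hN, hM, -, hx, hy⟩ := isolated_split hp N hN0 τ υ hυ
    (Nat.lcm_dvd ha (Nat.lcm_dvd hb hc)) ⟨B, hB, Nat.lcm_dvd (hBg a) (Nat.lcm_dvd (hBg b) (hBg c))⟩
  refine ⟨x, y, g, ?_⟩
  rw [hx, hy, hg, ← Nat.lcm_assoc, (Nat.Coprime.pow_right u hM).lcm_eq_mul, hN, mul_comm M]

theorem pair (D : Data G p r t) (hp : p.Prime) (hr : r.Prime) (hrp : r ≠ p) (hw : ∃ w : G, orderOf w = r * p ^ t) (a b : G) :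
    ∃ a' b' : G, (orderOf a').lcm (orderOf b') = ((orderOf a).lcm (orderOf b)).lcm r := by
  obtain ⟨τ, υ, hυ, hiso⟩ := D.main
  have hbd := D.bd
  by_cases hra : r ∣ orderOf a
  · exact ⟨a, b, (Nat.lcm_eq_left (hra.trans (Nat.dvd_lcm_left _ _))).symm⟩
  by_cases hrb : r ∣ orderOf b
  · exact ⟨a, b, (Nat.lcm_eq_left (hrb.trans (Nat.dvd_lcm_right _ _))).symm⟩
  rcases hiso a hra with ⟨a', ha'⟩ | ha
  · exact ⟨a', b, by rw [ha', lcm_aux hr hra]⟩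
  rcases hiso b hrb with ⟨b', hb'⟩ | hb
  · exact ⟨a, b', by rw [hb', Nat.lcm_comm, lcm_aux hr hrb, Nat.lcm_comm (orderOf b)]⟩
  obtain ⟨B, hB, hBg⟩ := hbd
  set N := (orderOf a).lcm (orderOf b) with hNdef
  have hN0 : N ≠ 0 := Nat.lcm_ne_zero (orderOf_pos a).ne' (orderOf_pos b).ne'
  obtain ⟨u, M, x, y, hN, hM, hut, hx, hy⟩ := isolated_split hp N hN0 τ υ hυ
    (Nat.lcm_dvd ha hb) ⟨B, hB, Nat.lcm_dvd (hBg a) (hBg b)⟩
  obtain ⟨g, hg⟩ := hw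
  obtain ⟨g', hg'⟩ := exists_orderOf_dvd g (m := r * p ^ u) (by rw [hg]; exact Nat.mul_dvd_mul_left _ (pow_dvd_pow _ hut))
  refine ⟨x, g', ?_⟩
  have hru : r.Coprime (p ^ u) := Nat.Coprime.pow_right _ ((Nat.coprime_primes hr hp).mpr hrp)
  rw [hx, hg', hN, ← hru.lcm_eq_mul, Nat.lcm_comm r, ← Nat.lcm_assoc, (Nat.Coprime.pow_right u hM).lcm_eq_mul,
    mul_comm M]

theorem orderOf_mult (hr : r.Prime) {m : ℕ} (z : Multiplicative (Fin m → ZMod r)) : orderOf z = 1 ∨ orderOf z = r := by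
  rw [← Nat.dvd_prime hr]
  apply orderOf_dvd_of_pow_eq_one
  apply Multiplicative.toAdd.injective
  rw [toAdd_pow, toAdd_one]
  funext i
  rw [Pi.smul_apply, nsmul_eq_mul, CharP.cast_eq_zero, zero_mul, Pi.zero_apply]

theorem range_triple (D : Data G p r t) (hp : p.Prime) (hr : r.Prime) (m : ℕ) :
    Set.range (orderOf : G × G × G × Multiplicative (Fin m → ZMod r) → ℕ) = Set.range (orderOf : G × G × G → ℕ) := by
  apply Set.Subset.antisymm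
  · rintro _ ⟨⟨a, b, c, z⟩, rfl⟩
    rw [Prod.orderOf_mk, Prod.orderOf_mk, Prod.orderOf_mk]
    rcases orderOf_mult hr z with hz | hz
    · refine ⟨(a, b, c), ?_⟩
      rw [Prod.orderOf_mk, Prod.orderOf_mk, hz, Nat.lcm_one_right]
    · obtain ⟨a', b', c', h⟩ := triple D hp hr a b c
      refine ⟨(a', b', c'), ?_⟩
      rw [Prod.orderOf_mk, Prod.orderOf_mk, h, hz, Nat.lcm_assoc, Nat.lcm_assoc]
  · rintro _ ⟨⟨a, b, c⟩, rfl⟩
    refine ⟨(a, b, c, 1), ?_⟩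
    rw [Prod.orderOf_mk, Prod.orderOf_mk, Prod.orderOf_mk, Prod.orderOf_mk, Prod.orderOf_mk, orderOf_one,
      Nat.lcm_one_right]

theorem range_pair (D : Data G p r t) (hp : p.Prime) (hr : r.Prime) (hrp : r ≠ p) (hw : ∃ w : G, orderOf w = r * p ^ t)
    (m : ℕ) :
    Set.range (orderOf : G × G × Multiplicative (Fin m → ZMod r) → ℕ) = Set.range (orderOf : G × G → ℕ) := by
  apply Set.Subset.antisymm
  · rintro _ ⟨⟨a, b, z⟩, rfl⟩
    rw [Prod.orderOf_mk, Prod.orderOf_mk]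
    rcases orderOf_mult hr z with hz | hz
    · refine ⟨(a, b), ?_⟩
      rw [Prod.orderOf_mk, hz, Nat.lcm_one_right]
    · obtain ⟨a', b', h⟩ := pair D hp hr hrp hw a b
      refine ⟨(a', b'), ?_⟩
      rw [Prod.orderOf_mk, h, hz, Nat.lcm_assoc]
  · rintro _ ⟨⟨a, b⟩, rfl⟩
    refine ⟨(a, b, 1), ?_⟩
    rw [Prod.orderOf_mk, Prod.orderOf_mk, Prod.orderOf_mk, orderOf_one, Nat.lcm_one_right]

end CfsgLib.SpecComb27
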