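import Mathlib

set_option autoImplicit false

/-! Element orders in `SL_n(F)` and `PSL_n(F)`, `F` a finite field: the polynomial bound and the elements coming from
commutative algebras. -/

namespace CfsgLib.SpecLin27

open Polynomial

theorem dvd_pow_of_irreducible_dvd {F : Type*} [Field F] (q : F[X]) :
    ∀ (n : ℕ) (p : F[X]), p ≠ 0 → p.natDegree ≤ n →
      (∀ f : F[X], Irreducible f → f ∣ p → f ∣ q) → p ∣ q ^ n := by
  intro n
  induction n with
  | zero =>
    intro p hp hdeg _
    have : p.natDegree = 0 := Nat.le_zero.mp hdeg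
    rw [pow_zero]
    exact (Polynomial.isUnit_iff_degree_eq_zero.mpr (by rw [Polynomial.degree_eq_natDegree hp, this]; rfl)).dvd
  | succ n ih =>
    intro p hp hdeg hf
    by_cases hu : IsUnit p
    · exact hu.dvd
    · obtain ⟨f, hfi, r, hr⟩ := WfDvdMonoid.exists_irreducible_factor hu hp
      have hr0 : r ≠ 0 := by rintro rfl; exact hp (by simpa using hr)
      have hf0 : f ≠ 0 := hfi.ne_zero
      have hdeg' : r.natDegree ≤ n := by
        have h1 : p.natDegree = f.natDegree + r.natDegree := by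
          rw [hr, Polynomial.natDegree_mul hf0 hr0]
        have h2 := hfi.natDegree_pos
        omega
      have h3 := ih r hr0 hdeg' (fun g hg hgr => hf g hg (hgr.trans ⟨f, by rw [hr, mul_comm]⟩))
      have h4 : f ∣ q := hf f hfi ⟨r, hr⟩
      rw [hr, pow_succ, mul_comm]
      exact mul_dvd_mul h3 h4

theorem irreducible_dvd_X_pow_sub_one {F : Type*} [Field F] [Fintype F] (f : F[X]) (hf : Irreducible f)
    (hX : ¬ f ∣ X) {M : ℕ} (hM : Fintype.card F ^ f.natDegree - 1 ∣ M) : f ∣ X ^ M - 1 := by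
  have h1 : f ∣ X ^ (Nat.card F) ^ f.natDegree - X :=
    (hf.natDegree_dvd_iff_dvd_X_pow_card_pow_sub_X).1 dvd_rfl
  have hpos : 1 ≤ (Fintype.card F) ^ f.natDegree := Nat.one_le_pow _ _ Fintype.card_pos
  have h2 : (X : F[X]) ^ (Nat.card F) ^ f.natDegree - X = X * (X ^ (Fintype.card F ^ f.natDegree - 1) - 1) := by
    rw [Nat.card_eq_fintype_card, mul_sub, mul_one, ← pow_succ', Nat.sub_add_cancel hpos]
  rw [h2] at h1
  have h3 := (hf.prime.dvd_or_dvd h1).resolve_left hX
  obtain ⟨k, rfl⟩ := hM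
  refine h3.trans ?_
  rw [pow_mul]
  exact sub_one_dvd_pow_sub_one' _ _
where
  sub_one_dvd_pow_sub_one' (y : F[X]) (k : ℕ) : y - 1 ∣ y ^ k - 1 := by
    simpa using sub_dvd_pow_sub_pow y 1 k

/-- If `p ^ t` and all `q ^ d - 1` for degrees `d` of irreducible factors of the characteristic polynomial divide `N`, then
`A ^ N = 1`. -/
theorem matrix_pow_eq_one {F : Type*} [Field F] [Fintype F] (p : ℕ) [Fact p.Prime] [CharP F p] {n : ℕ}
    (A : Matrix (Fin n) (Fin n) F) (hA : A.det ≠ 0) (t N : ℕ) (hn : n ≤ p ^ t) (ht : p ^ t ∣ N)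
    (hN : ∀ f : F[X], Irreducible f → f ∣ A.charpoly → Fintype.card F ^ f.natDegree - 1 ∣ N) : A ^ N = 1 := by
  obtain ⟨M, rfl⟩ := ht
  have hcop : ∀ d : ℕ, 0 < d → (Fintype.card F ^ d - 1).Coprime (p ^ t) := by
    intro d hd
    apply Nat.Coprime.pow_right
    rw [Nat.coprime_comm, Nat.Prime.coprime_iff_not_dvd (Fact.out : p.Prime)]
    intro h
    obtain ⟨k, hp, hk⟩ := FiniteField.card F p
    have h1 : p ∣ Fintype.card F ^ d := by
      rw [hk, ← pow_mul]
      exact dvd_pow_self p (Nat.mul_ne_zero k.pos.ne' hd.ne')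
    have hpos : 1 ≤ (Fintype.card F) ^ d := Nat.one_le_pow _ _ Fintype.card_pos
    have h2 : p ∣ 1 := by
      have := Nat.dvd_sub h1 h
      rwa [Nat.sub_sub_self hpos] at this
    exact (Fact.out : p.Prime).one_lt.ne' (Nat.dvd_one.mp h2)
  have hX : ∀ f : F[X], Irreducible f → f ∣ A.charpoly → ¬ f ∣ X := by
    intro f hf hfA hfX
    have hass : Associated f X := hf.associated_of_dvd Polynomial.irreducible_X hfX
    have h1 : X ∣ A.charpoly := hass.symm.dvd.trans hfA
    rw [Polynomial.X_dvd_iff, Polynomial.coeff_zero_eq_eval_zero, Matrix.eval_charpoly] at h1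
    apply hA
    have : (Matrix.scalar (Fin n)) (0 : F) - A = -A := by simp
    rw [this, Matrix.det_neg] at h1
    rcases mul_eq_zero.mp h1 with h | h
    · exact absurd h (pow_ne_zero _ (by simp))
    · exact h
  have h1 : A.charpoly ∣ (X ^ M - 1) ^ n := by
    apply dvd_pow_of_irreducible_dvd
    · exact (Matrix.charpoly_monic A).ne_zero
    · rw [Matrix.charpoly_natDegree_eq_dim, Fintype.card_fin]
    · intro f hf hfA
      refine irreducible_dvd_X_pow_sub_one f hf (hX f hf hfA) ?_
      exact (Nat.Coprime.dvd_of_dvd_mul_left (hcop _ hf.natDegree_pos) (hN f hf hfA))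
  have h2 : A.charpoly ∣ X ^ (p ^ t * M) - 1 := by
    have : (X : F[X]) ^ (p ^ t * M) - 1 = (X ^ M - 1) ^ (p ^ t) := by
      rw [sub_pow_char_pow, one_pow, ← pow_mul, mul_comm]
    rw [this]
    exact h1.trans (pow_dvd_pow _ hn)
  obtain ⟨r, hr⟩ := h2
  have h3 := congrArg (Polynomial.aeval A) hr
  rw [map_mul, Matrix.aeval_self_charpoly, zero_mul, map_sub, map_pow, Polynomial.aeval_X, map_one] at h3
  exact sub_eq_zero.mp h3

/-- Elements of `PSL_n(F)` from units of norm one in an `n`-dimensional commutative algebra. -/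
theorem exists_psl_of_algebra {F : Type*} [Field F] {n : ℕ} (E : Type*) [CommRing E] [Algebra F E]
    (b : Module.Basis (Fin n) F E) (x : E) (hx : Algebra.norm F x = 1) :
    ∃ g : Matrix.SpecialLinearGroup (Fin n) F,
      (∀ k : ℕ, g ^ k = 1 ↔ x ^ k = 1) ∧
      ∀ k : ℕ, (QuotientGroup.mk g : Matrix.ProjectiveSpecialLinearGroup (Fin n) F) ^ k = 1 ↔
        ∃ c : F, x ^ k = algebraMap F E c := by
  obtain ⟨g, hgc⟩ : ∃ g : Matrix.SpecialLinearGroup (Fin n) F,
      (g : Matrix (Fin n) (Fin n) F) = Algebra.leftMulMatrix b x :=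
    ⟨⟨Algebra.leftMulMatrix b x, by rw [← Algebra.norm_eq_matrix_det, hx]⟩, rfl⟩
  refine ⟨g, ?_, ?_⟩
  · intro k
    rw [show (g ^ k = 1 ↔ ((g ^ k : Matrix.SpecialLinearGroup (Fin n) F) : Matrix (Fin n) (Fin n) F) = ((1 : Matrix.SpecialLinearGroup (Fin n) F) : Matrix (Fin n) (Fin n) F)) from Subtype.ext_iff]
    rw [Matrix.SpecialLinearGroup.coe_pow, Matrix.SpecialLinearGroup.coe_one, hgc]
    rw [← map_pow, ← map_one (Algebra.leftMulMatrix b)]
    exact (Algebra.leftMulMatrix_injective b).eq_iff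
  · intro k
    rw [← QuotientGroup.mk_pow, QuotientGroup.eq_one_iff, Matrix.SpecialLinearGroup.mem_center_iff]
    rw [Matrix.SpecialLinearGroup.coe_pow, hgc]
    constructor
    · rintro ⟨c, -, hc⟩
      refine ⟨c, Algebra.leftMulMatrix_injective b ?_⟩
      rw [map_pow, ← hc, AlgHom.commutes]
      rfl
    · rintro ⟨c, hc⟩
      have h1 : (Algebra.leftMulMatrix b x) ^ k = Matrix.scalar (Fin n) c := by
        rw [← map_pow, hc, AlgHom.commutes]
        rfl
      refine ⟨c, ?_, h1.symm⟩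
      have h2 := congrArg Matrix.det h1
      rw [Matrix.det_pow, ← Algebra.norm_eq_matrix_det, hx, one_pow] at h2
      rw [h2]
      simp

/-- The unipotent unit `1 + ε` of `F[X]/(X^n)`. -/
theorem exists_psl_unipotent {F : Type*} [Field F] (p : ℕ) [Fact p.Prime] [CharP F p] {n : ℕ}
    (hn : 1 ≤ n) (t : ℕ) (ht : n ≤ p ^ t) (ht' : ∀ s, s < t → p ^ s < n) :
    ∃ g : Matrix.SpecialLinearGroup (Fin n) F,
      orderOf g = p ^ t ∧ orderOf (QuotientGroup.mk g : Matrix.ProjectiveSpecialLinearGroup (Fin n) F) = p ^ t := by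
  let E := AdjoinRoot ((X : F[X]) ^ n)
  have hmon : ((X : F[X]) ^ n).Monic := Polynomial.monic_X_pow n
  have hdeg : ((X : F[X]) ^ n).natDegree = n := Polynomial.natDegree_X_pow n
  let pb := AdjoinRoot.powerBasis' hmon
  have hdim : pb.dim = n := by simp [pb, AdjoinRoot.powerBasis', hdeg]
  let b : Module.Basis (Fin n) F E := pb.basis.reindex (finCongr hdim)
  let ε : E := AdjoinRoot.root _
  have hε : ∀ k : ℕ, ε ^ k = 0 ↔ n ≤ k := by
    intro k
    have h1 : ε ^ k = AdjoinRoot.mk _ (X ^ k) := by simp [ε, AdjoinRoot.mk_X]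
    rw [h1, AdjoinRoot.mk_eq_zero]
    constructor
    · intro h
      by_contra hk
      have := Polynomial.natDegree_le_of_dvd h (pow_ne_zero _ Polynomial.X_ne_zero)
      rw [Polynomial.natDegree_X_pow, Polynomial.natDegree_X_pow] at this
      omega
    · intro h
      exact pow_dvd_pow _ h
  have hεF : ∀ k : ℕ, 1 ≤ k → (∃ c : F, ε ^ k = algebraMap F E c) → n ≤ k := by
    rintro k hk ⟨c, hc⟩
    by_cases hc0 : c = 0
    · subst hc0
      rw [map_zero] at hc
      exact (hε k).1 hc
    · exfalso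
      have h1 : IsUnit (ε ^ k) := by
        rw [hc]
        exact (isUnit_iff_ne_zero.mpr hc0).map _
      have h2 : IsUnit ε := (isUnit_pow_iff (by omega)).1 h1
      have h3 : IsUnit (ε ^ n) := h2.pow n
      rw [(hε n).2 le_rfl] at h3
      have : Nontrivial E := by
        apply AdjoinRoot.nontrivial
        rw [Polynomial.degree_eq_natDegree hmon.ne_zero, hdeg]
        simp; omega
      exact not_isUnit_zero h3
  have hcharE : CharP E p := by
    have : Nontrivial E := by
      apply AdjoinRoot.nontrivial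
      rw [Polynomial.degree_eq_natDegree hmon.ne_zero, hdeg]
      simp; omega
    exact charP_of_injective_algebraMap (algebraMap F E).injective p
  have hpow : ∀ s : ℕ, (1 + ε) ^ (p ^ s) = 1 + ε ^ (p ^ s) := by
    intro s
    rw [add_pow_char_pow, one_pow]
  have hnorm : Algebra.norm F (1 + ε) = 1 := by
    have h1 : (Algebra.norm F (1 + ε)) ^ (p ^ t) = 1 := by
      rw [← map_pow, hpow t, (hε _).2 ht, add_zero, map_one]
    have h2 : (Algebra.norm F (1 + ε) - 1) ^ (p ^ t) = 0 := by
      rw [sub_pow_char_pow, h1, one_pow, sub_self]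
    exact sub_eq_zero.mp (pow_eq_zero_iff (pow_ne_zero _ (Fact.out : p.Prime).ne_zero) |>.1 h2)
  obtain ⟨g, hg1, hg2⟩ := exists_psl_of_algebra E b (1 + ε) hnorm
  refine ⟨g, ?_, ?_⟩
  · rcases Nat.eq_zero_or_pos t with rfl | htpos
    · have : (1 + ε) ^ 1 = 1 := by
        have := hpow 0
        rw [pow_zero] at this
        rw [this, (hε _).2 (by simpa using ht), add_zero]
      rw [pow_zero, orderOf_eq_one_iff]
      simpa using (hg1 1).2 this
    · obtain ⟨s, rfl⟩ : ∃ s, t = s + 1 := ⟨t - 1, by omega⟩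
      apply orderOf_eq_prime_pow
      · rw [hg1, hpow]
        intro h
        have h3 : ε ^ (p ^ s) = 0 := by simpa using h
        have := (hε _).1 h3
        have := ht' s (by omega)
        omega
      · rw [hg1, hpow, (hε _).2 ht, add_zero]
  · rcases Nat.eq_zero_or_pos t with rfl | htpos
    · have h1 : (1 + ε) ^ 1 = 1 := by
        have := hpow 0
        rw [pow_zero] at this
        rw [this, (hε _).2 (by simpa using ht), add_zero]
      rw [pow_zero, orderOf_eq_one_iff]
      simpa using (hg2 1).2 ⟨1, by rw [h1, map_one]⟩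
    · obtain ⟨s, rfl⟩ : ∃ s, t = s + 1 := ⟨t - 1, by omega⟩
      apply orderOf_eq_prime_pow
      · rw [hg2, hpow]
        rintro ⟨c, hc⟩
        have h3 : n ≤ p ^ s := hεF _ (Nat.one_le_pow _ _ (Fact.out : p.Prime).pos)
          ⟨c - 1, by rw [map_sub, map_one, ← hc]; ring⟩
        have := ht' s (by omega)
        omega
      · rw [hg2, hpow, (hε _).2 ht, add_zero]
        exact ⟨1, by rw [map_one]⟩

end CfsgLib.SpecLin27
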