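import Mathlib
import Cfsg.Agent.LibSpecLin27

set_option autoImplicit false

/-! More on element orders in `PSL_n(F)`: idempotents commuting with a matrix, the Singer torus. -/

namespace CfsgLib.SpecLin27

open Polynomial

/-- An irreducible factor of the characteristic polynomial divides every annihilating polynomial. -/
theorem irreducible_factor_dvd {F : Type*} [Field F] {n : ℕ} (M : Matrix (Fin n) (Fin n) F) (g : F[X])
    (hg : Irreducible g) (hgM : g ∣ M.charpoly) (P : F[X]) (hP : aeval M P = 0) : g ∣ P := by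
  haveI : Fact (Irreducible g) := ⟨hg⟩
  let α : AdjoinRoot g := AdjoinRoot.root g
  let M' : Matrix (Fin n) (Fin n) (AdjoinRoot g) := M.map (algebraMap F (AdjoinRoot g))
  have h1 : M'.charpoly.IsRoot α := by
    rw [Polynomial.IsRoot.def]
    have : M'.charpoly = M.charpoly.map (algebraMap F (AdjoinRoot g)) := by
      simpa [M'] using Matrix.charpoly_map M (algebraMap F (AdjoinRoot g))
    rw [this, Polynomial.eval_map]
    obtain ⟨r, hr⟩ := hgM
    rw [hr, Polynomial.eval₂_mul]
    have : Polynomial.eval₂ (algebraMap F (AdjoinRoot g)) α g = 0 := AdjoinRoot.eval₂_root g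
    rw [this, zero_mul]
  have h2 : Module.End.HasEigenvalue (Matrix.toLin' M') α := by
    rw [Module.End.hasEigenvalue_iff_isRoot_charpoly, Matrix.charpoly_toLin']
    exact h1
  obtain ⟨v, hv⟩ := h2.exists_hasEigenvector
  have h3 : aeval (Matrix.toLin' M') (P.map (algebraMap F (AdjoinRoot g))) = 0 := by
    have h4 : aeval M' (P.map (algebraMap F (AdjoinRoot g))) = 0 := by
      have h5 := congrArg (fun N : Matrix (Fin n) (Fin n) F => N.map (algebraMap F (AdjoinRoot g))) hP
      have h6 : (aeval M P).map (algebraMap F (AdjoinRoot g)) = aeval M' (P.map (algebraMap F (AdjoinRoot g))) := by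
        rw [Polynomial.aeval_def, Polynomial.aeval_def, Polynomial.eval₂_map]
        have := Polynomial.hom_eval₂ P (algebraMap F (Matrix (Fin n) (Fin n) F)) ((algebraMap F (AdjoinRoot g)).mapMatrix) M
        rw [RingHom.mapMatrix_apply] at this
        rw [this]
        congr 1
        ext c i j
        simp [Matrix.algebraMap_matrix_apply]
        split_ifs <;> simp
      rw [← h6]
      simpa using h5
    have h7 := Polynomial.aeval_algHom_apply (Matrix.toLinAlgEquiv' (R := AdjoinRoot g) (n := Fin n)).toAlgHom M'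
      (P.map (algebraMap F (AdjoinRoot g)))
    rw [h4, map_zero] at h7
    exact h7
  have h8 := Module.End.aeval_apply_of_hasEigenvector (p := P.map (algebraMap F (AdjoinRoot g))) hv
  rw [h3, LinearMap.zero_apply] at h8
  have h9 : Polynomial.eval α (P.map (algebraMap F (AdjoinRoot g))) = 0 :=
    (smul_eq_zero.mp h8.symm).resolve_right hv.2
  rw [Polynomial.eval_map] at h9
  rw [← AdjoinRoot.mk_eq_zero, ← AdjoinRoot.aeval_eq, Polynomial.aeval_def]
  exact h9

/-- A monic polynomial all of whose irreducible factors are associated to the monic irreducible `f` is a power of `f`. -/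
theorem monic_eq_pow {F : Type*} [Field F] (f : F[X]) (hf : Irreducible f) (hfm : f.Monic) :
    ∀ (n : ℕ) (P : F[X]), P.Monic → P.natDegree ≤ n → (∀ g : F[X], Irreducible g → g ∣ P → Associated g f) →
      ∃ j : ℕ, P = f ^ j := by
  intro n
  induction n with
  | zero =>
    intro P hP hdeg _
    exact ⟨0, by rw [pow_zero]; exact hP.natDegree_eq_zero.mp (Nat.le_zero.mp hdeg)⟩
  | succ n ih =>
    intro P hP hdeg h
    by_cases hu : IsUnit P
    · exact ⟨0, by rw [pow_zero]; exact hP.eq_one_of_isUnit hu⟩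
    · obtain ⟨g, hg, hgP⟩ := WfDvdMonoid.exists_irreducible_factor hu hP.ne_zero
      have hfP : f ∣ P := (h g hg hgP).symm.dvd.trans hgP
      obtain ⟨R, hR⟩ := hfP
      have hRm : R.Monic := hfm.of_mul_monic_left (hR ▸ hP)
      have hdegR : R.natDegree ≤ n := by
        have h1 : P.natDegree = f.natDegree + R.natDegree := by
          rw [hR, Polynomial.natDegree_mul hf.ne_zero hRm.ne_zero]
        have h2 := hf.natDegree_pos
        omega
      obtain ⟨j, hj⟩ := ih R hRm hdegR (fun g hg hgR => h g hg (hgR.trans ⟨f, by rw [hR, mul_comm]⟩))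
      exact ⟨j + 1, by rw [hR, hj, pow_succ, mul_comm]⟩

theorem commute_aeval {F : Type*} [Field F] {n : ℕ} (A : Matrix (Fin n) (Fin n) F) (P : F[X]) : Commute (aeval A P) A := by
  have h1 : aeval A P * aeval A (X : F[X]) = aeval A (X : F[X]) * aeval A P := by rw [← map_mul, ← map_mul, mul_comm]
  rwa [Polynomial.aeval_X] at h1

/-- Either some nontrivial idempotent commutes with `A`, or the characteristic polynomial of `A` is a power of an
irreducible polynomial. -/
theorem idempotent_or_primary {F : Type*} [Field F] {n : ℕ} (hn : 1 ≤ n) (A : Matrix (Fin n) (Fin n) F) :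
    (∃ e : Matrix (Fin n) (Fin n) F, e * e = e ∧ e ≠ 0 ∧ e ≠ 1 ∧ e * A = A * e ∧ ∃ P : F[X], e = aeval A P) ∨
      ∃ (f : F[X]) (j : ℕ), Irreducible f ∧ f.Monic ∧ A.charpoly = f ^ j := by
  classical
  have hmon := Matrix.charpoly_monic A
  have hnu : ¬ IsUnit A.charpoly := by
    intro h
    have := Polynomial.natDegree_eq_zero_of_isUnit h
    rw [Matrix.charpoly_natDegree_eq_dim, Fintype.card_fin] at this
    omega
  obtain ⟨f, hfi, hfA⟩ : ∃ f : F[X], (Irreducible f ∧ f.Monic) ∧ f ∣ A.charpoly := by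
    obtain ⟨g, hg, hgA⟩ := WfDvdMonoid.exists_irreducible_factor hnu hmon.ne_zero
    refine ⟨normalize g, ⟨?_, Polynomial.monic_normalize hg.ne_zero⟩, ?_⟩
    · exact (associated_normalize g).irreducible hg
    · exact (normalize_associated g).dvd.trans hgA
  by_cases hall : ∀ g : F[X], Irreducible g → g ∣ A.charpoly → Associated g f
  · right
    obtain ⟨j, hj⟩ := monic_eq_pow f hfi.1 hfi.2 _ _ hmon le_rfl hall
    exact ⟨f, j, hfi.1, hfi.2, hj⟩
  · left
    push Not at hall
    obtain ⟨g, hg, hgA, hgf⟩ := hall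
    have hfin : FiniteMultiplicity f A.charpoly :=
      FiniteMultiplicity.of_not_isUnit hfi.1.not_isUnit hmon.ne_zero
    obtain ⟨R, hR, hRf⟩ := hfin.exists_eq_pow_mul_and_not_dvd
    set k := multiplicity f A.charpoly with hk
    have hgR : g ∣ R := by
      rcases (hg.prime.dvd_or_dvd (hR ▸ hgA : g ∣ f ^ k * R)) with h | h
      · exact absurd (hg.associated_of_dvd hfi.1 (hg.prime.dvd_of_dvd_pow h)) hgf
      · exact h
    have hk0 : k ≠ 0 := by
      intro h0
      rw [h0, pow_zero, one_mul] at hR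
      exact hRf (hR ▸ hfA)
    have hcop : IsCoprime (f ^ k) R := (hfi.1.coprime_iff_not_dvd.mpr hRf).pow_left
    obtain ⟨u, v, huv⟩ := hcop
    let e : Matrix (Fin n) (Fin n) F := aeval A (u * f ^ k)
    have hsum : e + aeval A (v * R) = 1 := by
      rw [← map_add, huv, map_one]
    have hprod : e * aeval A (v * R) = 0 := by
      have h1 : (u * f ^ k) * (v * R) = (u * v) * A.charpoly := by rw [hR]; ring
      rw [← map_mul, h1, map_mul, Matrix.aeval_self_charpoly, mul_zero]
    refine ⟨e, ?_, ?_, ?_, ?_, ⟨_, rfl⟩⟩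
    · have : e * 1 = e * e + e * aeval A (v * R) := by rw [← mul_add, hsum]
      rw [hprod, add_zero, mul_one] at this
      exact this.symm
    · intro h0
      have h1 := irreducible_factor_dvd A g hg hgA _ h0
      have h2 : g ∣ 1 := by
        rw [← huv]
        exact dvd_add h1 (hgR.mul_left _)
      exact hg.not_isUnit (isUnit_of_dvd_one h2)
    · intro h1
      rw [h1] at hsum
      have h0 : aeval A (v * R) = 0 := by simpa using hsum
      have h2 := irreducible_factor_dvd A f hfi.1 hfA _ h0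
      have h3 : f ∣ 1 := by
        rw [← huv]
        exact dvd_add ((dvd_pow_self f hk0).mul_left _) h2
      exact hfi.1.not_isUnit (isUnit_of_dvd_one h3)
    · exact (commute_aeval A _).eq

/-- From an idempotent commuting with `A` we get an element of order `r` times the order. -/
theorem exists_orderOf_mul {F : Type*} [Field F] {n r : ℕ} (hr : r.Prime) (hrn : ¬ r ∣ n)
    (ζ : F) (hζ : ζ ^ r = 1) (hζ1 : ζ ≠ 1) (A : Matrix.SpecialLinearGroup (Fin n) F)
    (e : Matrix (Fin n) (Fin n) F) (he : e * e = e) (he0 : e ≠ 0) (he1 : e ≠ 1)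
    (heA : e * (A : Matrix (Fin n) (Fin n) F) = (A : Matrix (Fin n) (Fin n) F) * e)
    (hrA : ¬ r ∣ orderOf (QuotientGroup.mk A : Matrix.ProjectiveSpecialLinearGroup (Fin n) F)) :
    ∃ g : Matrix.ProjectiveSpecialLinearGroup (Fin n) F,
      orderOf g = r * orderOf (QuotientGroup.mk A : Matrix.ProjectiveSpecialLinearGroup (Fin n) F) := by
  haveI := Fact.mk hr
  have hee : e * (1 - e) = 0 := by rw [mul_sub, mul_one, he, sub_self]
  have hee' : (1 - e) * e = 0 := by rw [sub_mul, one_mul, he, sub_self]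
  have he1e : (1 - e) * (1 - e) = 1 - e := by rw [mul_sub, mul_one, hee', sub_zero]
  let z : Matrix (Fin n) (Fin n) F := ζ • e + (1 - e)
  have hzpow : ∀ k : ℕ, z ^ k = ζ ^ k • e + (1 - e) := by
    intro k
    induction k with
    | zero => simp
    | succ k ih =>
      rw [pow_succ, ih]
      simp only [z]
      rw [add_mul, mul_add, mul_add, smul_mul_smul_comm, he, smul_mul_assoc, hee, mul_smul_comm, hee', he1e, pow_succ]
      simp
  have hzr : z ^ r = 1 := by rw [hzpow, hζ, one_smul]; abel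
  have hdetr : z.det ^ r = 1 := by rw [← Matrix.det_pow, hzr, Matrix.det_one]
  have hdet0 : z.det ≠ 0 := by
    intro h
    rw [h, zero_pow hr.ne_zero] at hdetr
    exact zero_ne_one hdetr
  obtain ⟨Z, hZ⟩ : ∃ Z : Matrix.SpecialLinearGroup (Fin n) F,
      (Z : Matrix (Fin n) (Fin n) F) = (z.det)⁻¹ • z ^ n := by
    refine ⟨⟨(z.det)⁻¹ • z ^ n, ?_⟩, rfl⟩
    rw [Matrix.det_smul, Matrix.det_pow, Fintype.card_fin, ← mul_pow, inv_mul_cancel₀ hdet0, one_pow]
  have hZr : Z ^ r = 1 := by
    apply Subtype.ext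
    rw [Matrix.SpecialLinearGroup.coe_pow, hZ, _root_.smul_pow, ← pow_mul, mul_comm n r, pow_mul, hzr, one_pow, inv_pow, hdetr,
      inv_one, one_smul, Matrix.SpecialLinearGroup.coe_one]
  have hZ1 : (QuotientGroup.mk Z : Matrix.ProjectiveSpecialLinearGroup (Fin n) F) ≠ 1 := by
    intro h
    rw [QuotientGroup.eq_one_iff, Matrix.SpecialLinearGroup.mem_center_iff] at h
    obtain ⟨c, -, hc⟩ := h
    rw [hZ, hzpow] at hc
    have hc' : (z.det * c) • (1 : Matrix (Fin n) (Fin n) F) = ζ ^ n • e + (1 - e) := by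
      have h1 : (Matrix.scalar (Fin n)) c = c • (1 : Matrix (Fin n) (Fin n) F) := by
        rw [Matrix.scalar_apply, Matrix.smul_one_eq_diagonal]
      rw [h1] at hc
      rw [mul_smul, hc, smul_smul, mul_inv_cancel₀ hdet0, one_smul]
    have h2 := congrArg (· * e) hc'
    simp only [smul_mul_assoc, one_mul, add_mul, he, hee', add_zero] at h2
    have h3 := congrArg (· * (1 - e)) hc'
    simp only [smul_mul_assoc, one_mul, add_mul, hee, he1e, smul_zero, zero_add] at h3
    have h4 : z.det * c = ζ ^ n := smul_left_injective F he0 h2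
    have h5 : z.det * c = 1 := by
      have : (z.det * c) • (1 - e) = (1 : F) • (1 - e) := by rw [h3, one_smul]
      exact smul_left_injective F (sub_ne_zero.mpr (Ne.symm he1)) this
    rw [h5] at h4
    have h6 : orderOf ζ = r := orderOf_eq_prime hζ hζ1
    exact hrn (h6 ▸ orderOf_dvd_of_pow_eq_one h4.symm)
  have hZo : orderOf (QuotientGroup.mk Z : Matrix.ProjectiveSpecialLinearGroup (Fin n) F) = r := by
    haveI := Fact.mk hr
    apply orderOf_eq_prime _ hZ1
    rw [← QuotientGroup.mk_pow, hZr, QuotientGroup.mk_one]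
  have hcomm : Commute Z A := by
    apply Subtype.ext
    rw [Matrix.SpecialLinearGroup.coe_mul, Matrix.SpecialLinearGroup.coe_mul, hZ, hzpow]
    rw [smul_mul_assoc, mul_smul_comm, add_mul, mul_add, smul_mul_assoc, mul_smul_comm, heA, sub_mul, mul_sub, heA,
      one_mul, mul_one]
  refine ⟨QuotientGroup.mk Z * QuotientGroup.mk A, ?_⟩
  have hcomm' : Commute (QuotientGroup.mk Z : Matrix.ProjectiveSpecialLinearGroup (Fin n) F) (QuotientGroup.mk A) := by
    change _ = _
    rw [← QuotientGroup.mk_mul, hcomm.eq, QuotientGroup.mk_mul]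
  rw [hcomm'.orderOf_mul_eq_mul_orderOf_of_coprime, hZo]
  rw [hZo]
  exact (Nat.Prime.coprime_iff_not_dvd hr).mpr hrA

/-- The Singer torus: one element of `PSL_n(F)` whose order bounds the `p'`-parts of the orders of all primary elements. -/
theorem exists_singer {F : Type*} [Field F] [Fintype F] (p : ℕ) [Fact p.Prime] [CharP F p] {n : ℕ} (hn : 1 ≤ n) :
    ∃ τ : Matrix.ProjectiveSpecialLinearGroup (Fin n) F, ∀ A : Matrix.SpecialLinearGroup (Fin n) F,
      (∃ (f : F[X]) (j : ℕ), Irreducible f ∧ f.Monic ∧ (A : Matrix (Fin n) (Fin n) F).charpoly = f ^ j) →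
        ∀ t : ℕ, n ≤ p ^ t →
          orderOf (QuotientGroup.mk A : Matrix.ProjectiveSpecialLinearGroup (Fin n) F) ∣ p ^ t * orderOf τ := by
  haveI : NeZero n := ⟨by omega⟩
  let K := FiniteField.Extension F p n
  have hK : Module.finrank F K = n := FiniteField.finrank_extension F p n
  let b : Module.Basis (Fin n) F K := Module.finBasisOfFinrankEq F K hK
  let T : Subgroup Kˣ := (Units.map (Algebra.norm F : K →* F)).ker
  obtain ⟨y0, hy0⟩ := IsCyclic.exists_generator (α := T)
  have hnorm0 : Algebra.norm F ((y0 : Kˣ) : K) = 1 := by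
    have := y0.2
    rw [MonoidHom.mem_ker] at this
    have h := congrArg Units.val this
    simpa using h
  obtain ⟨g, -, hg⟩ := exists_psl_of_algebra K b _ hnorm0
  refine ⟨QuotientGroup.mk g, ?_⟩
  set τ : Matrix.ProjectiveSpecialLinearGroup (Fin n) F := QuotientGroup.mk g with hτdef
  have hτ : ∀ y : K, Algebra.norm F y = 1 → ∃ c : F, y ^ (orderOf τ) = algebraMap F K c := by
    intro y hy
    have hy0' : y ≠ 0 := by
      rintro rfl
      rw [Algebra.norm_zero] at hy
      exact zero_ne_one hy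
    let yu : Kˣ := Units.mk0 y hy0'
    have hyT : yu ∈ T := by
      rw [MonoidHom.mem_ker]
      ext
      simpa [yu] using hy
    obtain ⟨i, hi⟩ := (Subgroup.mem_zpowers_iff.mp (hy0 ⟨yu, hyT⟩))
    obtain ⟨c0, hc0⟩ := (hg (orderOf τ)).1 (pow_orderOf_eq_one τ)
    refine ⟨c0 ^ i, ?_⟩
    have h1 : (yu : K) = ((y0 : Kˣ) : K) ^ i := by
      have := congrArg (fun z : T => ((z : Kˣ) : K)) hi
      simpa using this.symm
    have h2 : y = ((y0 : Kˣ) : K) ^ i := h1
    rw [h2, map_zpow₀, ← hc0, ← zpow_natCast, ← zpow_natCast, ← zpow_mul, ← zpow_mul, mul_comm]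
  rintro A ⟨f, j, hfi, hfm, hA⟩ t ht
  have hdeg : f.natDegree * j = n := by
    have := congrArg Polynomial.natDegree hA
    rw [Matrix.charpoly_natDegree_eq_dim, Fintype.card_fin, hfm.natDegree_pow] at this
    rw [this, mul_comm]
  haveI : Fact (Irreducible f) := ⟨hfi⟩
  have hfr : Module.finrank F (AdjoinRoot f) = f.natDegree := by
    exact finrank_quotient_span_eq_natDegree (f := f)
  haveI : Module.Finite F (AdjoinRoot f) := Module.finite_of_finrank_pos (by rw [hfr]; exact hfi.natDegree_pos)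
  haveI : Finite (AdjoinRoot f) := Module.finite_of_finite F
  obtain ⟨ι⟩ : Nonempty (AdjoinRoot f →ₐ[F] K) := by
    apply FiniteField.nonempty_algHom_of_finrank_dvd
    rw [hfr, hK, ← hdeg]
    exact dvd_mul_right _ _
  set y : K := ι (AdjoinRoot.root f) with hy
  have hyf : aeval y f = 0 := by
    rw [hy, Polynomial.aeval_algHom_apply, AdjoinRoot.aeval_eq, AdjoinRoot.mk_self, map_zero]
  have hmin : minpoly F y = f := (minpoly.eq_of_irreducible_of_monic hfi hyf hfm).symm
  set M : Matrix (Fin n) (Fin n) F := Algebra.leftMulMatrix b y with hM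
  have hMf : aeval M f = 0 := by
    rw [hM, Polynomial.aeval_algHom_apply, hyf, map_zero]
  obtain ⟨j', hj'⟩ := monic_eq_pow f hfi hfm _ M.charpoly (Matrix.charpoly_monic M) le_rfl
    (fun g hg hgM => hg.associated_of_dvd hfi (irreducible_factor_dvd M g hg hgM f hMf))
  have hdeg' : f.natDegree * j' = n := by
    have := congrArg Polynomial.natDegree hj'
    rw [Matrix.charpoly_natDegree_eq_dim, Fintype.card_fin, hfm.natDegree_pow] at this
    rw [this, mul_comm]
  have hjj : j' = j := Nat.eq_of_mul_eq_mul_left hfi.natDegree_pos (hdeg'.trans hdeg.symm)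
  have hnorm : Algebra.norm F y = 1 := by
    rw [Algebra.norm_eq_matrix_det b, ← hM]
    have h1 : M.charpoly = (A : Matrix (Fin n) (Fin n) F).charpoly := by rw [hj', hjj, hA]
    rw [Matrix.det_eq_sign_charpoly_coeff, h1, ← Matrix.det_eq_sign_charpoly_coeff, A.det_coe]
  obtain ⟨c, hc⟩ := hτ y hnorm
  have hfd : f ∣ X ^ orderOf τ - C c := by
    rw [← hmin]
    apply minpoly.dvd
    rw [map_sub, map_pow, Polynomial.aeval_X, Polynomial.aeval_C, hc, sub_self]
  have hj : j ≤ p ^ t := by
    refine le_trans ?_ ht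
    rw [← hdeg]
    exact Nat.le_mul_of_pos_left _ hfi.natDegree_pos
  have h1 : (A : Matrix (Fin n) (Fin n) F).charpoly ∣ X ^ (p ^ t * orderOf τ) - C (c ^ (p ^ t)) := by
    have : (X : F[X]) ^ (p ^ t * orderOf τ) - C (c ^ (p ^ t)) = (X ^ orderOf τ - C c) ^ (p ^ t) := by
      rw [sub_pow_char_pow, ← pow_mul, mul_comm, map_pow]
    rw [this, hA]
    exact (pow_dvd_pow_of_dvd hfd j).trans (pow_dvd_pow _ hj)
  obtain ⟨R, hR⟩ := h1
  have h2 := congrArg (Polynomial.aeval (A : Matrix (Fin n) (Fin n) F)) hR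
  rw [map_mul, Matrix.aeval_self_charpoly, zero_mul, map_sub, map_pow, Polynomial.aeval_X, Polynomial.aeval_C] at h2
  have h3 := sub_eq_zero.mp h2
  apply orderOf_dvd_of_pow_eq_one
  rw [← QuotientGroup.mk_pow, QuotientGroup.eq_one_iff, Matrix.SpecialLinearGroup.mem_center_iff]
  refine ⟨c ^ p ^ t, ?_, ?_⟩
  · have h4 := congrArg Matrix.det h3
    rw [Matrix.det_pow, A.det_coe, one_pow, Matrix.algebraMap_eq_diagonal] at h4
    rw [h4]
    simp
  · rw [Matrix.SpecialLinearGroup.coe_pow, h3]
    rfl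

/-- As `exists_psl_of_algebra`, with the matrix made explicit. -/
theorem exists_psl_of_algebra' {F : Type*} [Field F] {n : ℕ} (E : Type*) [CommRing E] [Algebra F E]
    (b : Module.Basis (Fin n) F E) (x : E) (hx : Algebra.norm F x = 1) :
    ∃ g : Matrix.SpecialLinearGroup (Fin n) F,
      (g : Matrix (Fin n) (Fin n) F) = Algebra.leftMulMatrix b x ∧
      ∀ k : ℕ, (QuotientGroup.mk g : Matrix.ProjectiveSpecialLinearGroup (Fin n) F) ^ k = 1 ↔
        ∃ c : F, x ^ k = algebraMap F E c := by
  obtain ⟨g, hgc⟩ : ∃ g : Matrix.SpecialLinearGroup (Fin n) F,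
      (g : Matrix (Fin n) (Fin n) F) = Algebra.leftMulMatrix b x :=
    ⟨⟨Algebra.leftMulMatrix b x, by rw [← Algebra.norm_eq_matrix_det, hx]⟩, rfl⟩
  refine ⟨g, hgc, ?_⟩
  intro k
  rw [← QuotientGroup.mk_pow, QuotientGroup.eq_one_iff, Matrix.SpecialLinearGroup.mem_center_iff]
  rw [Matrix.SpecialLinearGroup.coe_pow, hgc]
  constructor
  · rintro ⟨c, -, hc⟩
    refine ⟨c, Algebra.leftMulMatrix_injective b ?_⟩
    rw [map_pow, ← hc, AlgHom.commutes]
    rfl
  · rintro ⟨c, hc⟩
    have h1 : (Algebra.leftMulMatrix b x) ^ k = Matrix.scalar (Fin n) c := by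
      rw [← map_pow, hc, AlgHom.commutes]
      rfl
    refine ⟨c, ?_, h1.symm⟩
    have h2 := congrArg Matrix.det h1
    rw [Matrix.det_pow, ← Algebra.norm_eq_matrix_det, hx, one_pow] at h2
    rw [h2]
    simp

/-- A unipotent element of `SL_n` of order `p ^ t`, `t` least with `n - 1 ≤ p ^ t`, commuting with an idempotent. -/
theorem exists_unipotent_idem {F : Type*} [Field F] (p : ℕ) [Fact p.Prime] [CharP F p] {n : ℕ}
    (hn : 2 ≤ n) (t : ℕ) (ht : n - 1 ≤ p ^ t) (ht' : ∀ s, s < t → p ^ s < n - 1) :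
    ∃ (g : Matrix.SpecialLinearGroup (Fin n) F) (e : Matrix (Fin n) (Fin n) F),
      orderOf (QuotientGroup.mk g : Matrix.ProjectiveSpecialLinearGroup (Fin n) F) = p ^ t ∧
        e * e = e ∧ e ≠ 0 ∧ e ≠ 1 ∧ e * (g : Matrix (Fin n) (Fin n) F) = (g : Matrix (Fin n) (Fin n) F) * e := by
  let E' := AdjoinRoot ((X : F[X]) ^ (n - 1))
  have hmon : ((X : F[X]) ^ (n - 1)).Monic := Polynomial.monic_X_pow (n - 1)
  have hdeg : ((X : F[X]) ^ (n - 1)).natDegree = n - 1 := Polynomial.natDegree_X_pow (n - 1)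
  let pb := AdjoinRoot.powerBasis' hmon
  have hdim : pb.dim = n - 1 := by simp [pb, AdjoinRoot.powerBasis', hdeg]
  haveI : Module.Finite F E' := pb.finite
  have hfr' : Module.finrank F E' = n - 1 := by rw [pb.finrank, hdim]
  let ε : E' := AdjoinRoot.root _
  have hε : ∀ k : ℕ, ε ^ k = 0 ↔ n - 1 ≤ k := by
    intro k
    have h1 : ε ^ k = AdjoinRoot.mk _ (X ^ k) := by simp [ε, AdjoinRoot.mk_X]
    rw [h1, AdjoinRoot.mk_eq_zero]
    constructor
    · intro h
      by_contra hk
      have := Polynomial.natDegree_le_of_dvd h (pow_ne_zero _ Polynomial.X_ne_zero)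
      rw [Polynomial.natDegree_X_pow, Polynomial.natDegree_X_pow] at this
      omega
    · intro h
      exact pow_dvd_pow _ h
  haveI hnt : Nontrivial E' := by
    apply AdjoinRoot.nontrivial
    rw [Polynomial.degree_eq_natDegree hmon.ne_zero, hdeg]
    simp; omega
  haveI hcharE : CharP E' p := charP_of_injective_algebraMap (algebraMap F E').injective p
  have hpow : ∀ s : ℕ, ((1, 1 + ε) : F × E') ^ (p ^ s) = (1, 1 + ε ^ (p ^ s)) := by
    intro s
    rw [Prod.pow_mk, add_pow_char_pow, one_pow, one_pow]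
  have hfr : Module.finrank F (F × E') = n := by
    rw [Module.finrank_prod, hfr', Module.finrank_self]
    omega
  let b : Module.Basis (Fin n) F (F × E') := Module.finBasisOfFinrankEq F _ hfr
  have hnorm : Algebra.norm F ((1, 1 + ε) : F × E') = 1 := by
    have h1 : (Algebra.norm F ((1, 1 + ε) : F × E')) ^ (p ^ t) = 1 := by
      rw [← map_pow, hpow t, (hε _).2 ht, add_zero]
      exact map_one _
    have h2 : (Algebra.norm F ((1, 1 + ε) : F × E') - 1) ^ (p ^ t) = 0 := by
      rw [sub_pow_char_pow, h1, one_pow, sub_self]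
    exact sub_eq_zero.mp (pow_eq_zero_iff (pow_ne_zero _ (Fact.out : p.Prime).ne_zero) |>.1 h2)
  obtain ⟨g, hgc, hg⟩ := exists_psl_of_algebra' (F × E') b _ hnorm
  refine ⟨g, Algebra.leftMulMatrix b ((1, 0) : F × E'), ?_, ?_, ?_, ?_, ?_⟩
  · rcases Nat.eq_zero_or_pos t with rfl | htpos
    · rw [pow_zero, orderOf_eq_one_iff]
      have h1 := (hg 1).2 ⟨1, by
        have := hpow 0
        rw [pow_zero] at this
        rw [this, (hε _).2 (by simpa using ht), add_zero, map_one]
        rfl⟩
      simpa using h1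
    · obtain ⟨s, rfl⟩ : ∃ s, t = s + 1 := ⟨t - 1, by omega⟩
      apply orderOf_eq_prime_pow
      · rw [hg, hpow]
        rintro ⟨c, hc⟩
        have hc1 : (1 : F) = c := congrArg Prod.fst hc
        have hc2 : 1 + ε ^ p ^ s = algebraMap F E' c := congrArg Prod.snd hc
        rw [← hc1, map_one] at hc2
        have h3 : ε ^ p ^ s = 0 := by simpa using hc2
        have h4 := (hε _).1 h3
        have := ht' s (by omega)
        omega
      · rw [hg, hpow, (hε _).2 ht, add_zero]
        exact ⟨1, by rw [map_one]; rfl⟩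
  · rw [← map_mul]; simp
  · intro h
    have := Algebra.leftMulMatrix_injective b (h.trans (map_zero _).symm)
    exact one_ne_zero (congrArg Prod.fst this)
  · intro h
    have := Algebra.leftMulMatrix_injective b (h.trans (map_one _).symm)
    exact zero_ne_one (congrArg Prod.snd this)
  · rw [hgc, ← map_mul, ← map_mul, mul_comm]

theorem exists_orderOf_dvd {G : Type*} [Group G] [Finite G] (g : G) {m : ℕ} (hm : m ∣ orderOf g) :
    ∃ h : G, orderOf h = m := by
  obtain ⟨r, hr⟩ := hm
  have hr0 : r ≠ 0 := by rintro rfl; exact (orderOf_pos g).ne' (by rw [hr, mul_zero])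
  refine ⟨g ^ r, ?_⟩
  rw [orderOf_pow_of_dvd hr0 (by rw [hr]; exact dvd_mul_left _ _), hr]
  exact Nat.mul_div_cancel _ (Nat.pos_of_ne_zero hr0)

/-- The order of every element of `PSL_n(F)` divides `p ^ t` times a number prime to `p`. -/
theorem exists_bound {F : Type*} [Field F] [Fintype F] (p : ℕ) [Fact p.Prime] [CharP F p] {n : ℕ} (t : ℕ)
    (ht : n ≤ p ^ t) :
    ∃ N : ℕ, N.Coprime p ∧ ∀ g : Matrix.ProjectiveSpecialLinearGroup (Fin n) F, orderOf g ∣ p ^ t * N := by
  refine ⟨∏ d ∈ Finset.Icc 1 n, (Fintype.card F ^ d - 1), ?_, ?_⟩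
  · apply Nat.Coprime.prod_left
    intro d hd
    rw [Finset.mem_Icc] at hd
    rw [Nat.coprime_comm, Nat.Prime.coprime_iff_not_dvd (Fact.out : p.Prime)]
    intro h
    obtain ⟨k, hp, hk⟩ := FiniteField.card F p
    have h1 : p ∣ Fintype.card F ^ d := by
      rw [hk, ← pow_mul]
      exact dvd_pow_self p (Nat.mul_ne_zero k.pos.ne' (by omega))
    have hpos : 1 ≤ (Fintype.card F) ^ d := Nat.one_le_pow _ _ Fintype.card_pos
    have h2 : p ∣ 1 := by
      have := Nat.dvd_sub h1 h
      rwa [Nat.sub_sub_self hpos] at this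
    exact (Fact.out : p.Prime).one_lt.ne' (Nat.dvd_one.mp h2)
  · intro g
    obtain ⟨A, rfl⟩ := QuotientGroup.mk_surjective g
    apply orderOf_dvd_of_pow_eq_one
    have hA : (A : Matrix (Fin n) (Fin n) F) ^ (p ^ t * ∏ d ∈ Finset.Icc 1 n, (Fintype.card F ^ d - 1)) = 1 := by
      apply matrix_pow_eq_one p _ (by rw [A.det_coe]; exact one_ne_zero) t _ ht (dvd_mul_right _ _)
      intro f hf hfA
      apply Dvd.dvd.mul_left
      apply Finset.dvd_prod_of_mem (fun d => Fintype.card F ^ d - 1)
      rw [Finset.mem_Icc]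
      refine ⟨hf.natDegree_pos, ?_⟩
      have h5 := Polynomial.natDegree_le_of_dvd hfA (Matrix.charpoly_monic _).ne_zero
      rwa [Matrix.charpoly_natDegree_eq_dim, Fintype.card_fin] at h5
    rw [← QuotientGroup.mk_pow, QuotientGroup.eq_one_iff]
    have : A ^ (p ^ t * ∏ d ∈ Finset.Icc 1 n, (Fintype.card F ^ d - 1)) = 1 := by
      apply Subtype.ext
      rw [Matrix.SpecialLinearGroup.coe_pow, hA, Matrix.SpecialLinearGroup.coe_one]
    rw [this]
    exact Subgroup.one_mem _

end CfsgLib.SpecLin27
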