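import Cfsg.Agent.LibSltwo3

/-!
A bound for the order of a group with a split BN-pair of type `B₂`.
-/

set_option autoImplicit false
set_option linter.all false

namespace CfsgLib.Spfour

section bn

variable {G : Type*} [Group G] {F : Type*} [Field F]

/-- conjugation moves a root group to another one -/
def NX (g : G) (x y : F → G) : Prop := ∃ μ : F, μ ≠ 0 ∧ ∀ a, g * x a * g⁻¹ = y (μ * a)

theorem NX.inv {g : G} {x y : F → G} (h : NX g x y) : NX g⁻¹ y x := by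
  obtain ⟨μ, h0, h⟩ := h
  refine ⟨μ⁻¹, inv_ne_zero h0, fun a => ?_⟩
  have := h (μ⁻¹ * a)
  rw [mul_inv_cancel_left₀ h0] at this
  rw [← this]; group

theorem NX.mul {g k : G} {x y z : F → G} (h : NX g x y) (h' : NX k y z) : NX (k * g) x z := by
  obtain ⟨μ, h0, h⟩ := h
  obtain ⟨ν, h0', h'⟩ := h'
  refine ⟨ν * μ, mul_ne_zero h0' h0, fun a => ?_⟩
  have e : k * g * x a * (k * g)⁻¹ = k * (g * x a * g⁻¹) * k⁻¹ := by group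
  rw [e, h, h', mul_assoc]

theorem NX.one (x : F → G) : NX (1 : G) x x := ⟨1, one_ne_zero, fun a => by simp⟩

theorem NX.zpow {g : G} {x : F → G} (h : NX g x x) (i : ℤ) : NX (g ^ i) x x := by
  obtain ⟨n, rfl | rfl⟩ := i.eq_nat_or_neg
  · rw [zpow_natCast]
    induction n with
    | zero => rw [pow_zero]; exact NX.one x
    | succ n ih => rw [pow_succ]; exact h.mul ih
  · rw [zpow_neg, zpow_natCast]
    apply NX.inv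
    induction n with
    | zero => rw [pow_zero]; exact NX.one x
    | succ n ih => rw [pow_succ]; exact h.mul ih

/-- the hypotheses -/
structure BN2 (x1 x2 x3 x4 : F → G) (h1 h4 n1 n4 : G) : Prop where
  add1 : ∀ a b, x1 (a + b) = x1 a * x1 b
  add2 : ∀ a b, x2 (a + b) = x2 a * x2 b
  add3 : ∀ a b, x3 (a + b) = x3 a * x3 b
  add4 : ∀ a b, x4 (a + b) = x4 a * x4 b
  c23 : ∀ a b, Commute (x2 a) (x3 b)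
  c24 : ∀ a b, Commute (x2 a) (x4 b)
  c34 : ∀ a b, Commute (x3 a) (x4 b)
  c12 : ∀ a b, Commute (x1 a) (x2 b)
  c13 : ∀ a b, ∃ c, x1 a * x3 b = x3 b * x2 c * x1 a
  c14 : ∀ a b, ∃ c d, x1 a * x4 b = x4 b * (x3 c * x2 d) * x1 a
  hh : Commute h1 h4
  t11 : NX h1 x1 x1
  t12 : NX h1 x2 x2
  t13 : NX h1 x3 x3
  t14 : NX h1 x4 x4
  t41 : NX h4 x1 x1
  t42 : NX h4 x2 x2
  t43 : NX h4 x3 x3
  t44 : NX h4 x4 x4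
  m12 : NX n1 x2 x4
  m14 : NX n1 x4 x2
  m13 : NX n1 x3 x3
  m41 : NX n4 x1 x3
  m43 : NX n4 x3 x1
  m42 : NX n4 x2 x2
  w11 : n1 * h1 * n1⁻¹ = h1⁻¹
  w14 : n1 * h4 * n1⁻¹ = h4 * h1
  w44 : n4 * h4 * n4⁻¹ = h4⁻¹
  w41 : n4 * h1 * n4⁻¹ = h1 * (h4 * h4)
  s1 : ∃ i : ℤ, n1 * n1 = h1 ^ i
  s4 : ∃ i : ℤ, n4 * n4 = h4 ^ i
  q1 : ∀ a, a ≠ 0 → ∃ (c d : F) (i : ℤ), n1 * x1 a * n1⁻¹ = x1 c * h1 ^ i * n1 * x1 d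
  q4 : ∀ a, a ≠ 0 → ∃ (c d : F) (i : ℤ), n4 * x4 a * n4⁻¹ = x4 c * h4 ^ i * n4 * x4 d
  br : n1 * n4 * n1 * n4 = n4 * n1 * n4 * n1

/-- extension of a subgroup by a root group normalizing it -/
def ext (x : F → G) (N : Subgroup G) (hadd : ∀ a b, x (a + b) = x a * x b) (hn : ∀ a, ∀ n ∈ N, x a * n * (x a)⁻¹ ∈ N) :
    Subgroup G where
  carrier := {g | ∃ a, ∃ n ∈ N, g = x a * n}
  one_mem' := ⟨0, 1, N.one_mem, by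
    have := hadd 0 0
    rw [add_zero] at this
    rw [(mul_eq_left.1 this.symm), mul_one]⟩
  mul_mem' := by
    rintro _ _ ⟨a, n, hn1, rfl⟩ ⟨b, m, hm, rfl⟩
    have h0 : x 0 = 1 := by
      have := hadd 0 0
      rw [add_zero] at this
      exact (mul_eq_left.1 this.symm)
    have hb : x (-b) = (x b)⁻¹ := by
      apply eq_inv_of_mul_eq_one_left
      rw [← hadd, neg_add_cancel, h0]
    refine ⟨a + b, x (-b) * n * (x (-b))⁻¹ * m, N.mul_mem (hn _ _ hn1) hm, ?_⟩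
    rw [hadd, hb]; group
  inv_mem' := by
    rintro _ ⟨a, n, hn1, rfl⟩
    have h0 : x 0 = 1 := by
      have := hadd 0 0
      rw [add_zero] at this
      exact (mul_eq_left.1 this.symm)
    have hb : x (-a) = (x a)⁻¹ := by
      apply eq_inv_of_mul_eq_one_left
      rw [← hadd, neg_add_cancel, h0]
    refine ⟨-a, x a * n⁻¹ * (x a)⁻¹, hn _ _ (N.inv_mem hn1), ?_⟩
    rw [hb]; group

variable {x1 x2 x3 x4 : F → G} {h1 h4 n1 n4 : G}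

namespace BN2

/-- the product of the two highest root groups -/
def N23 (D : BN2 x1 x2 x3 x4 h1 h4 n1 n4) : Subgroup G :=
  ext x3 (ext x2 ⊥ D.add2 (by
    intro a n hn
    rw [Subgroup.mem_bot] at hn ⊢
    rw [hn]; group)) D.add3 (by
    rintro a _ ⟨b, n, hn, rfl⟩
    rw [Subgroup.mem_bot] at hn
    refine ⟨b, 1, Subgroup.one_mem _, ?_⟩
    rw [hn, mul_one, ← (D.c23 b a).eq]; group)

theorem mem23 (D : BN2 x1 x2 x3 x4 h1 h4 n1 n4) (g : G) : g ∈ D.N23 ↔ ∃ a b, g = x3 a * x2 b := by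
  constructor
  · rintro ⟨a, _, ⟨b, n, hn, rfl⟩, rfl⟩
    rw [Subgroup.mem_bot] at hn
    exact ⟨a, b, by rw [hn, mul_one]⟩
  · rintro ⟨a, b, rfl⟩
    exact ⟨a, x2 b, ⟨b, 1, Subgroup.one_mem _, by rw [mul_one]⟩, rfl⟩

theorem x3_mem23 (D : BN2 x1 x2 x3 x4 h1 h4 n1 n4) (a : F) : x3 a ∈ D.N23 := by
  have h0 : x2 0 = 1 := by
    have := D.add2 0 0
    rw [add_zero] at this
    exact (mul_eq_left.1 this.symm)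
  exact (D.mem23 _).2 ⟨a, 0, by rw [h0, mul_one]⟩

theorem x2_mem23 (D : BN2 x1 x2 x3 x4 h1 h4 n1 n4) (a : F) : x2 a ∈ D.N23 := by
  have h0 : x3 0 = 1 := by
    have := D.add3 0 0
    rw [add_zero] at this
    exact (mul_eq_left.1 this.symm)
  exact (D.mem23 _).2 ⟨0, a, by rw [h0, one_mul]⟩

theorem norm1 (D : BN2 x1 x2 x3 x4 h1 h4 n1 n4) (a : F) (n : G) (hn : n ∈ D.N23) : x1 a * n * (x1 a)⁻¹ ∈ D.N23 := by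
  obtain ⟨b, c, rfl⟩ := (D.mem23 n).1 hn
  obtain ⟨d, hd⟩ := D.c13 a b
  have e : x1 a * (x3 b * x2 c) * (x1 a)⁻¹ = x3 b * x2 d * x2 c := by
    calc x1 a * (x3 b * x2 c) * (x1 a)⁻¹ = (x1 a * x3 b) * x2 c * (x1 a)⁻¹ := by group
      _ = x3 b * x2 d * (x1 a * x2 c) * (x1 a)⁻¹ := by rw [hd]; group
      _ = _ := by rw [(D.c12 a c).eq]; group
  rw [e]
  exact D.N23.mul_mem (D.N23.mul_mem (D.x3_mem23 _) (D.x2_mem23 _)) (D.x2_mem23 _)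

theorem norm4 (D : BN2 x1 x2 x3 x4 h1 h4 n1 n4) (a : F) (n : G) (hn : n ∈ D.N23) : x4 a * n * (x4 a)⁻¹ ∈ D.N23 := by
  obtain ⟨b, c, rfl⟩ := (D.mem23 n).1 hn
  have hc : Commute (x4 a) (x3 b * x2 c) := ((D.c34 b a).symm).mul_right (D.c24 c a).symm
  rw [hc.eq]
  simpa using hn

/-- unipotent radicals -/
def U1 (D : BN2 x1 x2 x3 x4 h1 h4 n1 n4) : Subgroup G := ext x4 D.N23 D.add4 D.norm4
def U4 (D : BN2 x1 x2 x3 x4 h1 h4 n1 n4) : Subgroup G := ext x1 D.N23 D.add1 D.norm1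

theorem x0of {y : F → G} (hadd : ∀ a b, y (a + b) = y a * y b) : y 0 = 1 := by
  have := hadd 0 0
  rw [add_zero] at this
  exact (mul_eq_left.1 this.symm)

theorem negof {y : F → G} (hadd : ∀ a b, y (a + b) = y a * y b) (b : F) : y (-b) = (y b)⁻¹ := by
  apply eq_inv_of_mul_eq_one_left
  rw [← hadd, neg_add_cancel, x0of hadd]

theorem N23_le1 (D : BN2 x1 x2 x3 x4 h1 h4 n1 n4) : D.N23 ≤ D.U1 := fun n hn => ⟨0, n, hn, by rw [x0of D.add4, one_mul]⟩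
theorem N23_le4 (D : BN2 x1 x2 x3 x4 h1 h4 n1 n4) : D.N23 ≤ D.U4 := fun n hn => ⟨0, n, hn, by rw [x0of D.add1, one_mul]⟩
theorem x4_mem1 (D : BN2 x1 x2 x3 x4 h1 h4 n1 n4) (a : F) : x4 a ∈ D.U1 := ⟨a, 1, D.N23.one_mem, by rw [mul_one]⟩
theorem x1_mem4 (D : BN2 x1 x2 x3 x4 h1 h4 n1 n4) (a : F) : x1 a ∈ D.U4 := ⟨a, 1, D.N23.one_mem, by rw [mul_one]⟩

theorem norm11 (D : BN2 x1 x2 x3 x4 h1 h4 n1 n4) (a : F) (n : G) (hn : n ∈ D.U1) : x1 a * n * (x1 a)⁻¹ ∈ D.U1 := by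
  obtain ⟨b, m, hm, rfl⟩ := hn
  obtain ⟨c, d, hcd⟩ := D.c14 a b
  have e : x1 a * (x4 b * m) * (x1 a)⁻¹ = x4 b * (x3 c * x2 d) * (x1 a * m * (x1 a)⁻¹) := by
    calc x1 a * (x4 b * m) * (x1 a)⁻¹ = (x1 a * x4 b) * m * (x1 a)⁻¹ := by group
      _ = _ := by rw [hcd]; group
  rw [e]
  exact D.U1.mul_mem (D.U1.mul_mem (D.x4_mem1 b) (D.N23_le1 (D.N23.mul_mem (D.x3_mem23 _) (D.x2_mem23 _)))) (D.N23_le1 (D.norm1 a m hm))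

/-- the unipotent group -/
def U (D : BN2 x1 x2 x3 x4 h1 h4 n1 n4) : Subgroup G := ext x1 D.U1 D.add1 D.norm11

theorem U1_le (D : BN2 x1 x2 x3 x4 h1 h4 n1 n4) : D.U1 ≤ D.U := fun n hn => ⟨0, n, hn, by rw [x0of D.add1, one_mul]⟩
theorem x1_mem (D : BN2 x1 x2 x3 x4 h1 h4 n1 n4) (a : F) : x1 a ∈ D.U := ⟨a, 1, D.U1.one_mem, by rw [mul_one]⟩
theorem x4_mem (D : BN2 x1 x2 x3 x4 h1 h4 n1 n4) (a : F) : x4 a ∈ D.U := D.U1_le (D.x4_mem1 a)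
theorem x2_mem (D : BN2 x1 x2 x3 x4 h1 h4 n1 n4) (a : F) : x2 a ∈ D.U := D.U1_le (D.N23_le1 (D.x2_mem23 a))
theorem x3_mem (D : BN2 x1 x2 x3 x4 h1 h4 n1 n4) (a : F) : x3 a ∈ D.U := D.U1_le (D.N23_le1 (D.x3_mem23 a))

theorem U4_le (D : BN2 x1 x2 x3 x4 h1 h4 n1 n4) : D.U4 ≤ D.U := by
  rintro _ ⟨a, n, hn, rfl⟩
  exact ⟨a, n, D.N23_le1 hn, rfl⟩

theorem dec1 (D : BN2 x1 x2 x3 x4 h1 h4 n1 n4) {u : G} (hu : u ∈ D.U) : ∃ a, ∃ v ∈ D.U1, u = x1 a * v := hu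

theorem dec4 (D : BN2 x1 x2 x3 x4 h1 h4 n1 n4) {u : G} (hu : u ∈ D.U) : ∃ a, ∃ v ∈ D.U4, u = x4 a * v := by
  obtain ⟨a, _, ⟨b, n, hn, rfl⟩, rfl⟩ := hu
  -- `x1 a x4 b n`
  obtain ⟨c, d, hcd⟩ := D.c14 a b
  refine ⟨b, (x3 c * x2 d) * x1 a * n, D.U4.mul_mem (D.U4.mul_mem (D.N23_le4 (D.N23.mul_mem (D.x3_mem23 _) (D.x2_mem23 _))) (D.x1_mem4 a)) (D.N23_le4 hn), ?_⟩
  calc x1 a * (x4 b * n) = (x1 a * x4 b) * n := by group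
    _ = _ := by rw [hcd]; group

theorem dec1' (D : BN2 x1 x2 x3 x4 h1 h4 n1 n4) {u : G} (hu : u ∈ D.U) : ∃ a, ∃ v ∈ D.U1, u = v * x1 a := by
  obtain ⟨a, v, hv, h⟩ := D.dec1 (D.U.inv_mem hu)
  refine ⟨-a, v⁻¹, D.U1.inv_mem hv, ?_⟩
  rw [negof D.add1, ← _root_.mul_inv_rev, ← h, inv_inv]

theorem dec4' (D : BN2 x1 x2 x3 x4 h1 h4 n1 n4) {u : G} (hu : u ∈ D.U) : ∃ a, ∃ v ∈ D.U4, u = v * x4 a := by
  obtain ⟨a, v, hv, h⟩ := D.dec4 (D.U.inv_mem hu)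
  refine ⟨-a, v⁻¹, D.U4.inv_mem hv, ?_⟩
  rw [negof D.add4, ← _root_.mul_inv_rev, ← h, inv_inv]

theorem n1_U1 (D : BN2 x1 x2 x3 x4 h1 h4 n1 n4) {v : G} (hv : v ∈ D.U1) : n1 * v * n1⁻¹ ∈ D.U1 := by
  obtain ⟨a, n, hn, rfl⟩ := hv
  obtain ⟨b, c, rfl⟩ := (D.mem23 n).1 hn
  obtain ⟨μ, _, hμ⟩ := D.m14
  obtain ⟨ν, _, hν⟩ := D.m13
  obtain ⟨κ, _, hκ⟩ := D.m12
  have e : n1 * (x4 a * (x3 b * x2 c)) * n1⁻¹ = (n1 * x4 a * n1⁻¹) * ((n1 * x3 b * n1⁻¹) * (n1 * x2 c * n1⁻¹)) := by group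
  rw [e, hμ, hν, hκ]
  exact D.U1.mul_mem (D.N23_le1 (D.x2_mem23 _)) (D.U1.mul_mem (D.N23_le1 (D.x3_mem23 _)) (D.x4_mem1 _))

theorem n1i_U1 (D : BN2 x1 x2 x3 x4 h1 h4 n1 n4) {v : G} (hv : v ∈ D.U1) : n1⁻¹ * v * n1 ∈ D.U1 := by
  obtain ⟨a, n, hn, rfl⟩ := hv
  obtain ⟨b, c, rfl⟩ := (D.mem23 n).1 hn
  obtain ⟨μ, _, hμ⟩ := D.m12.inv
  obtain ⟨ν, _, hν⟩ := D.m13.inv
  obtain ⟨κ, _, hκ⟩ := D.m14.inv
  rw [inv_inv] at hμ hν hκ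
  have e : n1⁻¹ * (x4 a * (x3 b * x2 c)) * n1 = (n1⁻¹ * x4 a * n1) * ((n1⁻¹ * x3 b * n1) * (n1⁻¹ * x2 c * n1)) := by group
  rw [e, hμ, hν, hκ]
  exact D.U1.mul_mem (D.N23_le1 (D.x2_mem23 _)) (D.U1.mul_mem (D.N23_le1 (D.x3_mem23 _)) (D.x4_mem1 _))

theorem n4_U4 (D : BN2 x1 x2 x3 x4 h1 h4 n1 n4) {v : G} (hv : v ∈ D.U4) : n4 * v * n4⁻¹ ∈ D.U4 := by
  obtain ⟨a, n, hn, rfl⟩ := hv
  obtain ⟨b, c, rfl⟩ := (D.mem23 n).1 hn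
  obtain ⟨μ, _, hμ⟩ := D.m41
  obtain ⟨ν, _, hν⟩ := D.m43
  obtain ⟨κ, _, hκ⟩ := D.m42
  have e : n4 * (x1 a * (x3 b * x2 c)) * n4⁻¹ = (n4 * x1 a * n4⁻¹) * ((n4 * x3 b * n4⁻¹) * (n4 * x2 c * n4⁻¹)) := by group
  rw [e, hμ, hν, hκ]
  exact D.U4.mul_mem (D.N23_le4 (D.x3_mem23 _)) (D.U4.mul_mem (D.x1_mem4 _) (D.N23_le4 (D.x2_mem23 _)))

theorem n4i_U4 (D : BN2 x1 x2 x3 x4 h1 h4 n1 n4) {v : G} (hv : v ∈ D.U4) : n4⁻¹ * v * n4 ∈ D.U4 := by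
  obtain ⟨a, n, hn, rfl⟩ := hv
  obtain ⟨b, c, rfl⟩ := (D.mem23 n).1 hn
  obtain ⟨μ, _, hμ⟩ := D.m43.inv
  obtain ⟨ν, _, hν⟩ := D.m41.inv
  obtain ⟨κ, _, hκ⟩ := D.m42.inv
  rw [inv_inv] at hμ hν hκ
  have e : n4⁻¹ * (x1 a * (x3 b * x2 c)) * n4 = (n4⁻¹ * x1 a * n4) * ((n4⁻¹ * x3 b * n4) * (n4⁻¹ * x2 c * n4)) := by group
  rw [e, hμ, hν, hκ]
  exact D.U4.mul_mem (D.N23_le4 (D.x3_mem23 _)) (D.U4.mul_mem (D.x1_mem4 _) (D.N23_le4 (D.x2_mem23 _)))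

/-- the torus -/
def T (D : BN2 x1 x2 x3 x4 h1 h4 n1 n4) : Subgroup G where
  carrier := {g | ∃ i j : ℤ, g = h1 ^ i * h4 ^ j}
  one_mem' := ⟨0, 0, by simp⟩
  mul_mem' := by
    rintro _ _ ⟨i, j, rfl⟩ ⟨k, l, rfl⟩
    refine ⟨i + k, j + l, ?_⟩
    have := ((D.hh.zpow_zpow k j)).eq
    rw [zpow_add, zpow_add]
    calc h1 ^ i * h4 ^ j * (h1 ^ k * h4 ^ l) = h1 ^ i * (h4 ^ j * h1 ^ k) * h4 ^ l := by group
      _ = h1 ^ i * (h1 ^ k * h4 ^ j) * h4 ^ l := by rw [this]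
      _ = _ := by group
  inv_mem' := by
    rintro _ ⟨i, j, rfl⟩
    refine ⟨-i, -j, ?_⟩
    have := ((D.hh.zpow_zpow (-i) (-j))).eq
    rw [_root_.mul_inv_rev, ← zpow_neg, ← zpow_neg, this]

theorem h1_mem (D : BN2 x1 x2 x3 x4 h1 h4 n1 n4) : h1 ∈ D.T := ⟨1, 0, by simp⟩
theorem h4_mem (D : BN2 x1 x2 x3 x4 h1 h4 n1 n4) : h4 ∈ D.T := ⟨0, 1, by simp⟩

theorem T_U (D : BN2 x1 x2 x3 x4 h1 h4 n1 n4) {t u : G} (ht : t ∈ D.T) (hu : u ∈ D.U) : t * u * t⁻¹ ∈ D.U := by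
  obtain ⟨i, j, rfl⟩ := ht
  obtain ⟨a, _, ⟨b, n, hn, rfl⟩, rfl⟩ := hu
  obtain ⟨c, d, rfl⟩ := (D.mem23 n).1 hn
  obtain ⟨μ, _, hμ⟩ := (D.t41.zpow j).mul (D.t11.zpow i)
  obtain ⟨ν, _, hν⟩ := (D.t44.zpow j).mul (D.t14.zpow i)
  obtain ⟨κ, _, hκ⟩ := (D.t43.zpow j).mul (D.t13.zpow i)
  obtain ⟨ρ, _, hρ⟩ := (D.t42.zpow j).mul (D.t12.zpow i)
  generalize h1 ^ i * h4 ^ j = t at *
  have e : t * (x1 a * (x4 b * (x3 c * x2 d))) * t⁻¹ = (t * x1 a * t⁻¹) * ((t * x4 b * t⁻¹) * ((t * x3 c * t⁻¹) * (t * x2 d * t⁻¹))) := by group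
  rw [e, hμ, hν, hκ, hρ]
  exact D.U.mul_mem (D.x1_mem _) (D.U.mul_mem (D.x4_mem _) (D.U.mul_mem (D.x3_mem _) (D.x2_mem _)))

/-- the Borel subgroup -/
def Bo (D : BN2 x1 x2 x3 x4 h1 h4 n1 n4) : Subgroup G where
  carrier := {g | ∃ u ∈ D.U, ∃ t ∈ D.T, g = u * t}
  one_mem' := ⟨1, D.U.one_mem, 1, D.T.one_mem, by simp⟩
  mul_mem' := by
    rintro _ _ ⟨u, hu, t, ht, rfl⟩ ⟨v, hv, s, hs, rfl⟩
    refine ⟨u * (t * v * t⁻¹), D.U.mul_mem hu (D.T_U ht hv), t * s, D.T.mul_mem ht hs, ?_⟩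
    group
  inv_mem' := by
    rintro _ ⟨u, hu, t, ht, rfl⟩
    refine ⟨t⁻¹ * u⁻¹ * (t⁻¹)⁻¹, D.T_U (D.T.inv_mem ht) (D.U.inv_mem hu), t⁻¹, D.T.inv_mem ht, ?_⟩
    group

theorem U_le (D : BN2 x1 x2 x3 x4 h1 h4 n1 n4) : D.U ≤ D.Bo := fun u hu => ⟨u, hu, 1, D.T.one_mem, by simp⟩
theorem T_le (D : BN2 x1 x2 x3 x4 h1 h4 n1 n4) : D.T ≤ D.Bo := fun t ht => ⟨1, D.U.one_mem, t, ht, by simp⟩

theorem conj_zpow' (g h : G) (i : ℤ) : g * h ^ i * g⁻¹ = (g * h * g⁻¹) ^ i := (_root_.conj_zpow).symm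

theorem n1_T (D : BN2 x1 x2 x3 x4 h1 h4 n1 n4) {t : G} (ht : t ∈ D.T) : n1 * t * n1⁻¹ ∈ D.T := by
  obtain ⟨i, j, rfl⟩ := ht
  have e : n1 * (h1 ^ i * h4 ^ j) * n1⁻¹ = (n1 * h1 * n1⁻¹) ^ i * (n1 * h4 * n1⁻¹) ^ j := by
    rw [← conj_zpow', ← conj_zpow']; group
  rw [e, D.w11, D.w14]
  exact D.T.mul_mem (D.T.zpow_mem (D.T.inv_mem D.h1_mem) _) (D.T.zpow_mem (D.T.mul_mem D.h4_mem D.h1_mem) _)

theorem n4_T (D : BN2 x1 x2 x3 x4 h1 h4 n1 n4) {t : G} (ht : t ∈ D.T) : n4 * t * n4⁻¹ ∈ D.T := by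
  obtain ⟨i, j, rfl⟩ := ht
  have e : n4 * (h1 ^ i * h4 ^ j) * n4⁻¹ = (n4 * h1 * n4⁻¹) ^ i * (n4 * h4 * n4⁻¹) ^ j := by
    rw [← conj_zpow', ← conj_zpow']; group
  rw [e, D.w41, D.w44]
  exact D.T.mul_mem (D.T.zpow_mem (D.T.mul_mem D.h1_mem (D.T.mul_mem D.h4_mem D.h4_mem)) _) (D.T.zpow_mem (D.T.inv_mem D.h4_mem) _)

theorem ss1 (D : BN2 x1 x2 x3 x4 h1 h4 n1 n4) : n1 * n1 ∈ D.T := by
  obtain ⟨i, hi⟩ := D.s1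
  rw [hi]; exact D.T.zpow_mem D.h1_mem _

theorem ss4 (D : BN2 x1 x2 x3 x4 h1 h4 n1 n4) : n4 * n4 ∈ D.T := by
  obtain ⟨i, hi⟩ := D.s4
  rw [hi]; exact D.T.zpow_mem D.h4_mem _

theorem n1i_T (D : BN2 x1 x2 x3 x4 h1 h4 n1 n4) {t : G} (ht : t ∈ D.T) : n1⁻¹ * t * n1 ∈ D.T := by
  have e : n1⁻¹ * t * n1 = (n1 * n1)⁻¹ * (n1 * t * n1⁻¹) * (n1 * n1) := by group
  rw [e]
  exact D.T.mul_mem (D.T.mul_mem (D.T.inv_mem D.ss1) (D.n1_T ht)) D.ss1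

theorem n4i_T (D : BN2 x1 x2 x3 x4 h1 h4 n1 n4) {t : G} (ht : t ∈ D.T) : n4⁻¹ * t * n4 ∈ D.T := by
  have e : n4⁻¹ * t * n4 = (n4 * n4)⁻¹ * (n4 * t * n4⁻¹) * (n4 * n4) := by group
  rw [e]
  exact D.T.mul_mem (D.T.mul_mem (D.T.inv_mem D.ss4) (D.n4_T ht)) D.ss4

/-- cells -/
def Cell (D : BN2 x1 x2 x3 x4 h1 h4 n1 n4) (w y : G) : Prop := ∃ u ∈ D.U, ∃ b ∈ D.Bo, y = u * w * b

theorem cell_U (D : BN2 x1 x2 x3 x4 h1 h4 n1 n4) {w y v : G} (hv : v ∈ D.U) (h : D.Cell w y) : D.Cell w (v * y) := by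
  obtain ⟨u, hu, b, hb, rfl⟩ := h
  exact ⟨v * u, D.U.mul_mem hv hu, b, hb, by group⟩

theorem cell_B (D : BN2 x1 x2 x3 x4 h1 h4 n1 n4) {w y b : G} (hb' : b ∈ D.Bo) (h : D.Cell w y) : D.Cell w (y * b) := by
  obtain ⟨u, hu, b1, hb1, rfl⟩ := h
  exact ⟨u, hu, b1 * b, D.Bo.mul_mem hb1 hb', by group⟩

/-- elements normalizing the torus -/
def NT (D : BN2 x1 x2 x3 x4 h1 h4 n1 n4) (w : G) : Prop := ∀ t ∈ D.T, w⁻¹ * t * w ∈ D.T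

theorem NT_one (D : BN2 x1 x2 x3 x4 h1 h4 n1 n4) : D.NT 1 := fun t ht => by simpa using ht
theorem NT_n1 (D : BN2 x1 x2 x3 x4 h1 h4 n1 n4) {w : G} (h : D.NT w) : D.NT (n1 * w) := by
  intro t ht
  have e : (n1 * w)⁻¹ * t * (n1 * w) = w⁻¹ * (n1⁻¹ * t * n1) * w := by group
  rw [e]; exact h _ (D.n1i_T ht)
theorem NT_n4 (D : BN2 x1 x2 x3 x4 h1 h4 n1 n4) {w : G} (h : D.NT w) : D.NT (n4 * w) := by
  intro t ht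
  have e : (n4 * w)⁻¹ * t * (n4 * w) = w⁻¹ * (n4⁻¹ * t * n4) * w := by group
  rw [e]; exact h _ (D.n4i_T ht)

theorem cell_T (D : BN2 x1 x2 x3 x4 h1 h4 n1 n4) {w y t : G} (hw : D.NT w) (ht : t ∈ D.T) (h : D.Cell w y) : D.Cell w (t * y) := by
  obtain ⟨u, hu, b, hb, rfl⟩ := h
  refine ⟨t * u * t⁻¹, D.T_U ht hu, (w⁻¹ * t * w) * b, D.Bo.mul_mem (D.T_le (hw t ht)) hb, ?_⟩
  group

/-- going up -/
theorem up1 (D : BN2 x1 x2 x3 x4 h1 h4 n1 n4) {w y : G} (hw : ∀ a, w⁻¹ * x1 a * w ∈ D.Bo) (h : D.Cell w y) :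
    D.Cell (n1 * w) (n1 * y) := by
  obtain ⟨u, hu, b, hb, rfl⟩ := h
  obtain ⟨a, v, hv, rfl⟩ := D.dec1' hu
  refine ⟨n1 * v * n1⁻¹, D.U1_le (D.n1_U1 hv), (w⁻¹ * x1 a * w) * b, D.Bo.mul_mem (hw a) hb, ?_⟩
  group

theorem up4 (D : BN2 x1 x2 x3 x4 h1 h4 n1 n4) {w y : G} (hw : ∀ a, w⁻¹ * x4 a * w ∈ D.Bo) (h : D.Cell w y) :
    D.Cell (n4 * w) (n4 * y) := by
  obtain ⟨u, hu, b, hb, rfl⟩ := h
  obtain ⟨a, v, hv, rfl⟩ := D.dec4' hu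
  refine ⟨n4 * v * n4⁻¹, D.U4_le (D.n4_U4 hv), (w⁻¹ * x4 a * w) * b, D.Bo.mul_mem (hw a) hb, ?_⟩
  group

/-- going down -/
theorem down1 (D : BN2 x1 x2 x3 x4 h1 h4 n1 n4) {w y : G} (hn : D.NT w) (hw : ∀ a, w⁻¹ * x1 a * w ∈ D.Bo) (h : D.Cell (n1 * w) y) :
    D.Cell w (n1 * y) ∨ D.Cell (n1 * w) (n1 * y) := by
  obtain ⟨u, hu, b, hb, rfl⟩ := h
  obtain ⟨a, v, hv, rfl⟩ := D.dec1' hu
  by_cases ha : a = 0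
  · left
    rw [ha, x0of D.add1, mul_one]
    have e : n1 * (v * (n1 * w) * b) = (n1 * v * n1⁻¹) * ((n1 * n1) * (w * b)) := by group
    rw [e]
    apply D.cell_U (D.U1_le (D.n1_U1 hv))
    apply D.cell_T hn D.ss1
    exact ⟨1, D.U.one_mem, b, hb, by group⟩
  · right
    obtain ⟨c, d, i, hcd⟩ := D.q1 a ha
    have e : n1 * (v * x1 a * (n1 * w) * b) = (n1 * v * n1⁻¹) * (x1 c * (h1 ^ i * (n1 * w *
        ((w⁻¹ * x1 d * w) * ((w⁻¹ * (n1 * n1) * w) * b))))) := by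
      have e1 : n1 * (v * x1 a * (n1 * w) * b) = (n1 * v * n1⁻¹) * (n1 * x1 a * n1⁻¹) * (n1 * n1) * w * b := by group
      rw [e1, hcd]; group
    rw [e]
    apply D.cell_U (D.U1_le (D.n1_U1 hv))
    apply D.cell_U (D.x1_mem c)
    apply D.cell_T (D.NT_n1 hn) (D.T.zpow_mem D.h1_mem _)
    refine ⟨1, D.U.one_mem, _, D.Bo.mul_mem (hw d) (D.Bo.mul_mem (D.T_le (hn _ D.ss1)) hb), by group⟩

theorem down4 (D : BN2 x1 x2 x3 x4 h1 h4 n1 n4) {w y : G} (hn : D.NT w) (hw : ∀ a, w⁻¹ * x4 a * w ∈ D.Bo) (h : D.Cell (n4 * w) y) :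
    D.Cell w (n4 * y) ∨ D.Cell (n4 * w) (n4 * y) := by
  obtain ⟨u, hu, b, hb, rfl⟩ := h
  obtain ⟨a, v, hv, rfl⟩ := D.dec4' hu
  by_cases ha : a = 0
  · left
    rw [ha, x0of D.add4, mul_one]
    have e : n4 * (v * (n4 * w) * b) = (n4 * v * n4⁻¹) * ((n4 * n4) * (w * b)) := by group
    rw [e]
    apply D.cell_U (D.U4_le (D.n4_U4 hv))
    apply D.cell_T hn D.ss4
    exact ⟨1, D.U.one_mem, b, hb, by group⟩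
  · right
    obtain ⟨c, d, i, hcd⟩ := D.q4 a ha
    have e : n4 * (v * x4 a * (n4 * w) * b) = (n4 * v * n4⁻¹) * (x4 c * (h4 ^ i * (n4 * w *
        ((w⁻¹ * x4 d * w) * ((w⁻¹ * (n4 * n4) * w) * b))))) := by
      have e1 : n4 * (v * x4 a * (n4 * w) * b) = (n4 * v * n4⁻¹) * (n4 * x4 a * n4⁻¹) * (n4 * n4) * w * b := by group
      rw [e1, hcd]; group
    rw [e]
    apply D.cell_U (D.U4_le (D.n4_U4 hv))
    apply D.cell_U (D.x4_mem c)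
    apply D.cell_T (D.NT_n4 hn) (D.T.zpow_mem D.h4_mem _)
    refine ⟨1, D.U.one_mem, _, D.Bo.mul_mem (hw d) (D.Bo.mul_mem (D.T_le (hn _ D.ss4)) hb), by group⟩

end BN2

end bn

end CfsgLib.Spfour
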