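import Cfsg.Agent.LibSpfour1

/-!
A bound for the order of a group with a split BN-pair of type `B₂`: conclusion.
-/

set_option autoImplicit false
set_option linter.all false

namespace CfsgLib.Spfour

section bn

variable {G : Type*} [Group G] {F : Type*} [Field F]

variable {x1 x2 x3 x4 : F → G} {h1 h4 n1 n4 : G}

namespace BN2

theorem p1_1 (D : BN2 x1 x2 x3 x4 h1 h4 n1 n4) (a : F) : (1 : G)⁻¹ * x1 a * 1 ∈ D.Bo := by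
  simpa using D.U_le (D.x1_mem a)

theorem p1_4 (D : BN2 x1 x2 x3 x4 h1 h4 n1 n4) (a : F) : (n4 * 1)⁻¹ * x1 a * (n4 * 1) ∈ D.Bo := by
  obtain ⟨μ, _, hμ⟩ := D.m43.inv
  obtain ⟨ν, _, hν⟩ := D.m41.inv
  obtain ⟨κ, _, hκ⟩ := D.m43
  have h := hμ
  rw [mul_one]
  have e : n4⁻¹ * x1 a * n4 ∈ D.U4 := D.n4i_U4 (D.x1_mem4 a)
  exact D.U_le (D.U4_le e)

theorem e43 (D : BN2 x1 x2 x3 x4 h1 h4 n1 n4) (a : F) : ∃ b, n4⁻¹ * x1 a * n4 = x3 b := by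
  obtain ⟨μ, _, hμ⟩ := D.m43.inv
  rw [inv_inv] at hμ
  exact ⟨_, hμ a⟩

theorem e41 (D : BN2 x1 x2 x3 x4 h1 h4 n1 n4) (a : F) : ∃ b, n4⁻¹ * x3 a * n4 = x1 b := by
  obtain ⟨μ, _, hμ⟩ := D.m41.inv
  rw [inv_inv] at hμ
  exact ⟨_, hμ a⟩

theorem e42 (D : BN2 x1 x2 x3 x4 h1 h4 n1 n4) (a : F) : ∃ b, n4⁻¹ * x2 a * n4 = x2 b := by
  obtain ⟨μ, _, hμ⟩ := D.m42.inv
  rw [inv_inv] at hμ
  exact ⟨_, hμ a⟩

theorem e13 (D : BN2 x1 x2 x3 x4 h1 h4 n1 n4) (a : F) : ∃ b, n1⁻¹ * x3 a * n1 = x3 b := by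
  obtain ⟨μ, _, hμ⟩ := D.m13.inv
  rw [inv_inv] at hμ
  exact ⟨_, hμ a⟩

theorem e12 (D : BN2 x1 x2 x3 x4 h1 h4 n1 n4) (a : F) : ∃ b, n1⁻¹ * x4 a * n1 = x2 b := by
  obtain ⟨μ, _, hμ⟩ := D.m12.inv
  rw [inv_inv] at hμ
  exact ⟨_, hμ a⟩

theorem e14 (D : BN2 x1 x2 x3 x4 h1 h4 n1 n4) (a : F) : ∃ b, n1⁻¹ * x2 a * n1 = x4 b := by
  obtain ⟨μ, _, hμ⟩ := D.m14.inv
  rw [inv_inv] at hμ
  exact ⟨_, hμ a⟩

theorem p1_41 (D : BN2 x1 x2 x3 x4 h1 h4 n1 n4) (a : F) : (n4 * (n1 * 1))⁻¹ * x1 a * (n4 * (n1 * 1)) ∈ D.Bo := by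
  obtain ⟨b, hb⟩ := D.e43 a
  obtain ⟨c, hc⟩ := D.e13 b
  have e : (n4 * (n1 * 1))⁻¹ * x1 a * (n4 * (n1 * 1)) = n1⁻¹ * (n4⁻¹ * x1 a * n4) * n1 := by group
  rw [e, hb, hc]
  exact D.U_le (D.x3_mem c)

theorem p1_414 (D : BN2 x1 x2 x3 x4 h1 h4 n1 n4) (a : F) : (n4 * (n1 * (n4 * 1)))⁻¹ * x1 a * (n4 * (n1 * (n4 * 1))) ∈ D.Bo := by
  obtain ⟨b, hb⟩ := D.e43 a
  obtain ⟨c, hc⟩ := D.e13 b
  obtain ⟨d, hd⟩ := D.e41 c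
  have e : (n4 * (n1 * (n4 * 1)))⁻¹ * x1 a * (n4 * (n1 * (n4 * 1))) = n4⁻¹ * (n1⁻¹ * (n4⁻¹ * x1 a * n4) * n1) * n4 := by group
  rw [e, hb, hc, hd]
  exact D.U_le (D.x1_mem d)

theorem p4_1 (D : BN2 x1 x2 x3 x4 h1 h4 n1 n4) (a : F) : (1 : G)⁻¹ * x4 a * 1 ∈ D.Bo := by
  simpa using D.U_le (D.x4_mem a)

theorem p4_o (D : BN2 x1 x2 x3 x4 h1 h4 n1 n4) (a : F) : (n1 * 1)⁻¹ * x4 a * (n1 * 1) ∈ D.Bo := by
  obtain ⟨b, hb⟩ := D.e12 a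
  have e : (n1 * 1)⁻¹ * x4 a * (n1 * 1) = n1⁻¹ * x4 a * n1 := by group
  rw [e, hb]
  exact D.U_le (D.x2_mem b)

theorem p4_14 (D : BN2 x1 x2 x3 x4 h1 h4 n1 n4) (a : F) : (n1 * (n4 * 1))⁻¹ * x4 a * (n1 * (n4 * 1)) ∈ D.Bo := by
  obtain ⟨b, hb⟩ := D.e12 a
  obtain ⟨c, hc⟩ := D.e42 b
  have e : (n1 * (n4 * 1))⁻¹ * x4 a * (n1 * (n4 * 1)) = n4⁻¹ * (n1⁻¹ * x4 a * n1) * n4 := by group
  rw [e, hb, hc]
  exact D.U_le (D.x2_mem c)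

theorem p4_141 (D : BN2 x1 x2 x3 x4 h1 h4 n1 n4) (a : F) : (n1 * (n4 * (n1 * 1)))⁻¹ * x4 a * (n1 * (n4 * (n1 * 1))) ∈ D.Bo := by
  obtain ⟨b, hb⟩ := D.e12 a
  obtain ⟨c, hc⟩ := D.e42 b
  obtain ⟨d, hd⟩ := D.e14 c
  have e : (n1 * (n4 * (n1 * 1)))⁻¹ * x4 a * (n1 * (n4 * (n1 * 1))) = n1⁻¹ * (n4⁻¹ * (n1⁻¹ * x4 a * n1) * n4) * n1 := by group
  rw [e, hb, hc, hd]
  exact D.U_le (D.x4_mem d)

/-- the union of the cells -/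
def P (D : BN2 x1 x2 x3 x4 h1 h4 n1 n4) (y : G) : Prop :=
  D.Cell 1 y ∨ D.Cell (n1 * 1) y ∨ D.Cell (n4 * 1) y ∨ D.Cell (n4 * (n1 * 1)) y ∨ D.Cell (n1 * (n4 * 1)) y ∨
    D.Cell (n1 * (n4 * (n1 * 1))) y ∨ D.Cell (n4 * (n1 * (n4 * 1))) y ∨ D.Cell (n1 * (n4 * (n1 * (n4 * 1)))) y

theorem br' (D : BN2 x1 x2 x3 x4 h1 h4 n1 n4) : n1 * (n4 * (n1 * (n4 * 1))) = n4 * (n1 * (n4 * (n1 * 1))) := by
  have := D.br
  simpa only [mul_assoc, mul_one] using this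

theorem P_n1 (D : BN2 x1 x2 x3 x4 h1 h4 n1 n4) {y : G} (h : D.P y) : D.P (n1 * y) := by
  unfold P at h ⊢
  rcases h with h | h | h | h | h | h | h | h
  · have := D.up1 D.p1_1 h; tauto
  · have := D.down1 D.NT_one D.p1_1 h; tauto
  · have := D.up1 D.p1_4 h; tauto
  · have := D.up1 D.p1_41 h; tauto
  · have := D.down1 (D.NT_n4 D.NT_one) D.p1_4 h; tauto
  · have := D.down1 (D.NT_n4 (D.NT_n1 D.NT_one)) D.p1_41 h; tauto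
  · have := D.up1 D.p1_414 h; tauto
  · have := D.down1 (D.NT_n4 (D.NT_n1 (D.NT_n4 D.NT_one))) D.p1_414 h; tauto

theorem P_n4 (D : BN2 x1 x2 x3 x4 h1 h4 n1 n4) {y : G} (h : D.P y) : D.P (n4 * y) := by
  unfold P at h ⊢
  rw [D.br'] at h ⊢
  rcases h with h | h | h | h | h | h | h | h
  · have := D.up4 D.p4_1 h; tauto
  · have := D.up4 D.p4_o h; tauto
  · have := D.down4 D.NT_one D.p4_1 h; tauto
  · have := D.down4 (D.NT_n1 D.NT_one) D.p4_o h; tauto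
  · have := D.up4 D.p4_14 h; tauto
  · have := D.up4 D.p4_141 h; tauto
  · have := D.down4 (D.NT_n1 (D.NT_n4 D.NT_one)) D.p4_14 h; tauto
  · have := D.down4 (D.NT_n1 (D.NT_n4 (D.NT_n1 D.NT_one))) D.p4_141 h; tauto

theorem P_U (D : BN2 x1 x2 x3 x4 h1 h4 n1 n4) {y v : G} (hv : v ∈ D.U) (h : D.P y) : D.P (v * y) := by
  unfold P at h ⊢
  rcases h with h | h | h | h | h | h | h | h <;> (have := D.cell_U hv h; tauto)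

theorem P_T (D : BN2 x1 x2 x3 x4 h1 h4 n1 n4) {y t : G} (ht : t ∈ D.T) (h : D.P y) : D.P (t * y) := by
  unfold P at h ⊢
  rcases h with h | h | h | h | h | h | h | h
  · have := D.cell_T D.NT_one ht h; tauto
  · have := D.cell_T (D.NT_n1 D.NT_one) ht h; tauto
  · have := D.cell_T (D.NT_n4 D.NT_one) ht h; tauto
  · have := D.cell_T (D.NT_n4 (D.NT_n1 D.NT_one)) ht h; tauto
  · have := D.cell_T (D.NT_n1 (D.NT_n4 D.NT_one)) ht h; tauto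
  · have := D.cell_T (D.NT_n1 (D.NT_n4 (D.NT_n1 D.NT_one))) ht h; tauto
  · have := D.cell_T (D.NT_n4 (D.NT_n1 (D.NT_n4 D.NT_one))) ht h; tauto
  · have := D.cell_T (D.NT_n1 (D.NT_n4 (D.NT_n1 (D.NT_n4 D.NT_one)))) ht h; tauto

theorem P_all (D : BN2 x1 x2 x3 x4 h1 h4 n1 n4)
    (hgen : Subgroup.closure ({x1 1, h1, n1, x4 1, h4, n4} : Set G) = ⊤) (y : G) : D.P y := by
  have key : ∀ g : G, (∀ y, D.P y → D.P (g * y)) ∧ (∀ y, D.P y → D.P (g⁻¹ * y)) := by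
    intro g
    have hg : g ∈ Subgroup.closure ({x1 1, h1, n1, x4 1, h4, n4} : Set G) := by rw [hgen]; trivial
    induction hg using Subgroup.closure_induction with
    | mem z hz =>
      rcases hz with rfl | rfl | rfl | rfl | rfl | rfl
      · exact ⟨fun y hy => D.P_U (D.x1_mem 1) hy, fun y hy => D.P_U (D.U.inv_mem (D.x1_mem 1)) hy⟩
      · exact ⟨fun y hy => D.P_T D.h1_mem hy, fun y hy => D.P_T (D.T.inv_mem D.h1_mem) hy⟩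
      · refine ⟨fun y hy => D.P_n1 hy, fun y hy => ?_⟩
        have e : z⁻¹ * y = (z * z)⁻¹ * (z * y) := by group
        rw [e]; exact D.P_T (D.T.inv_mem D.ss1) (D.P_n1 hy)
      · exact ⟨fun y hy => D.P_U (D.x4_mem 1) hy, fun y hy => D.P_U (D.U.inv_mem (D.x4_mem 1)) hy⟩
      · exact ⟨fun y hy => D.P_T D.h4_mem hy, fun y hy => D.P_T (D.T.inv_mem D.h4_mem) hy⟩
      · refine ⟨fun y hy => D.P_n4 hy, fun y hy => ?_⟩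
        have e : z⁻¹ * y = (z * z)⁻¹ * (z * y) := by group
        rw [e]; exact D.P_T (D.T.inv_mem D.ss4) (D.P_n4 hy)
    | one => exact ⟨fun y hy => by rwa [one_mul], fun y hy => by rwa [inv_one, one_mul]⟩
    | mul a b _ _ ha hb =>
      refine ⟨fun y hy => ?_, fun y hy => ?_⟩
      · rw [mul_assoc]; exact ha.1 _ (hb.1 _ hy)
      · rw [_root_.mul_inv_rev, mul_assoc]; exact hb.2 _ (ha.2 _ hy)
    | inv a _ ha => exact ⟨ha.2, fun y hy => by rw [inv_inv]; exact ha.1 _ hy⟩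
  have h1 : D.P 1 := Or.inl ⟨1, D.U.one_mem, 1, D.Bo.one_mem, by simp⟩
  have := (key y).1 1 h1
  rwa [mul_one] at this

theorem peel0 (D : BN2 x1 x2 x3 x4 h1 h4 n1 n4) {y : G} (h : D.Cell 1 y) : y ∈ D.Bo := by
  obtain ⟨u, hu, b, hb, rfl⟩ := h
  rw [mul_one]
  exact D.Bo.mul_mem (D.U_le hu) hb

theorem peel1 (D : BN2 x1 x2 x3 x4 h1 h4 n1 n4) {w y : G} (h : D.Cell (n1 * w) y) : ∃ a y', D.Cell w y' ∧ y = x1 a * n1 * y' := by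
  obtain ⟨u, hu, b, hb, rfl⟩ := h
  obtain ⟨a, v, hv, rfl⟩ := D.dec1 hu
  refine ⟨a, (n1⁻¹ * v * n1) * w * b, ⟨_, D.U1_le (D.n1i_U1 hv), b, hb, rfl⟩, ?_⟩
  group

theorem peel4 (D : BN2 x1 x2 x3 x4 h1 h4 n1 n4) {w y : G} (h : D.Cell (n4 * w) y) : ∃ a y', D.Cell w y' ∧ y = x4 a * n4 * y' := by
  obtain ⟨u, hu, b, hb, rfl⟩ := h
  obtain ⟨a, v, hv, rfl⟩ := D.dec4 hu
  refine ⟨a, (n4⁻¹ * v * n4) * w * b, ⟨_, D.U4_le (D.n4i_U4 hv), b, hb, rfl⟩, ?_⟩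
  group

/-- representatives -/
def fw (x1 x4 : F → G) (n1 n4 : G) :
    (Unit ⊕ F ⊕ F ⊕ (F × F) ⊕ (F × F) ⊕ (F × F × F) ⊕ (F × F × F) ⊕ (F × F × F × F)) → G
  | Sum.inl _ => 1
  | Sum.inr (Sum.inl a) => x1 a * n1
  | Sum.inr (Sum.inr (Sum.inl a)) => x4 a * n4
  | Sum.inr (Sum.inr (Sum.inr (Sum.inl (a, b)))) => x4 a * n4 * (x1 b * n1)
  | Sum.inr (Sum.inr (Sum.inr (Sum.inr (Sum.inl (a, b))))) => x1 a * n1 * (x4 b * n4)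
  | Sum.inr (Sum.inr (Sum.inr (Sum.inr (Sum.inr (Sum.inl (a, b, c)))))) => x1 a * n1 * (x4 b * n4 * (x1 c * n1))
  | Sum.inr (Sum.inr (Sum.inr (Sum.inr (Sum.inr (Sum.inr (Sum.inl (a, b, c))))))) => x4 a * n4 * (x1 b * n1 * (x4 c * n4))
  | Sum.inr (Sum.inr (Sum.inr (Sum.inr (Sum.inr (Sum.inr (Sum.inr (a, b, c, d))))))) =>
    x1 a * n1 * (x4 b * n4 * (x1 c * n1 * (x4 d * n4)))

theorem P_fw (D : BN2 x1 x2 x3 x4 h1 h4 n1 n4) {y : G} (h : D.P y) : ∃ s, ∃ b ∈ D.Bo, y = fw x1 x4 n1 n4 s * b := by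
  unfold P at h
  rcases h with h | h | h | h | h | h | h | h
  · exact ⟨Sum.inl (), y, D.peel0 h, by rw [fw, one_mul]⟩
  · obtain ⟨a, y1, k1, e1⟩ := D.peel1 h
    exact ⟨Sum.inr (Sum.inl a), y1, D.peel0 k1, by rw [fw, e1]⟩
  · obtain ⟨a, y1, k1, e1⟩ := D.peel4 h
    exact ⟨Sum.inr (Sum.inr (Sum.inl a)), y1, D.peel0 k1, by rw [fw, e1]⟩
  · obtain ⟨a, y1, k1, e1⟩ := D.peel4 h
    obtain ⟨b, y2, k2, e2⟩ := D.peel1 k1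
    exact ⟨Sum.inr (Sum.inr (Sum.inr (Sum.inl (a, b)))), y2, D.peel0 k2, by rw [fw, e1, e2]; simp only [mul_assoc]⟩
  · obtain ⟨a, y1, k1, e1⟩ := D.peel1 h
    obtain ⟨b, y2, k2, e2⟩ := D.peel4 k1
    exact ⟨Sum.inr (Sum.inr (Sum.inr (Sum.inr (Sum.inl (a, b))))), y2, D.peel0 k2, by rw [fw, e1, e2]; simp only [mul_assoc]⟩
  · obtain ⟨a, y1, k1, e1⟩ := D.peel1 h
    obtain ⟨b, y2, k2, e2⟩ := D.peel4 k1
    obtain ⟨c, y3, k3, e3⟩ := D.peel1 k2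
    exact ⟨Sum.inr (Sum.inr (Sum.inr (Sum.inr (Sum.inr (Sum.inl (a, b, c)))))), y3, D.peel0 k3, by rw [fw, e1, e2, e3]; simp only [mul_assoc]⟩
  · obtain ⟨a, y1, k1, e1⟩ := D.peel4 h
    obtain ⟨b, y2, k2, e2⟩ := D.peel1 k1
    obtain ⟨c, y3, k3, e3⟩ := D.peel4 k2
    exact ⟨Sum.inr (Sum.inr (Sum.inr (Sum.inr (Sum.inr (Sum.inr (Sum.inl (a, b, c))))))), y3, D.peel0 k3, by rw [fw, e1, e2, e3]; simp only [mul_assoc]⟩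
  · obtain ⟨a, y1, k1, e1⟩ := D.peel1 h
    obtain ⟨b, y2, k2, e2⟩ := D.peel4 k1
    obtain ⟨c, y3, k3, e3⟩ := D.peel1 k2
    obtain ⟨d, y4, k4, e4⟩ := D.peel4 k3
    exact ⟨Sum.inr (Sum.inr (Sum.inr (Sum.inr (Sum.inr (Sum.inr (Sum.inr (a, b, c, d))))))), y4, D.peel0 k4, by rw [fw, e1, e2, e3, e4]; simp only [mul_assoc]⟩

theorem bound [Fintype F] (D : BN2 x1 x2 x3 x4 h1 h4 n1 n4)
    (hgen : Subgroup.closure ({x1 1, h1, n1, x4 1, h4, n4} : Set G) = ⊤) {M1 M4 : ℕ} (hM1 : 0 < M1) (hM4 : 0 < M4)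
    (hh1 : h1 ^ M1 = 1) (hh4 : h4 ^ M4 = 1) :
    Finite G ∧ Nat.card G ≤ (1 + 2 * Fintype.card F + 2 * Fintype.card F ^ 2 + 2 * Fintype.card F ^ 3 + Fintype.card F ^ 4) *
      (Fintype.card F ^ 4 * (M1 * M4)) := by
  have hz : ∀ (h : G) (M0 : ℕ), 0 < M0 → h ^ M0 = 1 → ∀ i : ℤ, ∃ j : Fin M0, h ^ i = h ^ j.1 := by
    intro h M0 hM0 hh0 i
    have h1 : h ^ (M0 : ℤ) = 1 := by rw [zpow_natCast, hh0]
    have h2 : (0 : ℤ) < M0 := by exact_mod_cast hM0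
    have h3 := Int.emod_nonneg i h2.ne'
    have h4 := Int.emod_lt_of_pos i h2
    refine ⟨⟨(i % M0).toNat, by omega⟩, ?_⟩
    rw [zpow_eq_zpow_emod i h1, ← zpow_natCast]
    congr 1
    exact (Int.toNat_of_nonneg h3).symm
  let g : (F × F × F × F) × (Fin M1 × Fin M4) → G := fun s =>
    x1 s.1.1 * (x4 s.1.2.1 * (x3 s.1.2.2.1 * x2 s.1.2.2.2)) * (h1 ^ s.2.1.1 * h4 ^ s.2.2.1)
  have hg : ∀ b ∈ D.Bo, ∃ s, g s = b := by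
    rintro _ ⟨u, ⟨a, _, ⟨b, n, hn, rfl⟩, rfl⟩, _, ⟨i, j, rfl⟩, rfl⟩
    obtain ⟨c, d, rfl⟩ := (D.mem23 n).1 hn
    obtain ⟨i', hi⟩ := hz h1 M1 hM1 hh1 i
    obtain ⟨j', hj⟩ := hz h4 M4 hM4 hh4 j
    exact ⟨((a, b, c, d), (i', j')), by simp only [g]; rw [hi, hj]⟩
  let f : (Unit ⊕ F ⊕ F ⊕ (F × F) ⊕ (F × F) ⊕ (F × F × F) ⊕ (F × F × F) ⊕ (F × F × F × F)) × ((F × F × F × F) × (Fin M1 × Fin M4)) → G :=
    fun s => fw x1 x4 n1 n4 s.1 * g s.2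
  have hf : Function.Surjective f := by
    intro y
    obtain ⟨s, b, hb, rfl⟩ := D.P_fw (D.P_all hgen y)
    obtain ⟨r, hr⟩ := hg b hb
    exact ⟨(s, r), by simp only [f]; rw [hr]⟩
  refine ⟨Finite.of_surjective f hf, ?_⟩
  have h1 := Nat.card_le_card_of_surjective f hf
  refine h1.trans (le_of_eq ?_)
  rw [Nat.card_eq_fintype_card]
  simp only [Fintype.card_sum, Fintype.card_prod, Fintype.card_fin, Fintype.card_unit]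
  ring

end BN2

end bn

end CfsgLib.Spfour
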