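import Cfsg.Agent.LibSpfour2
import Cfsg.Agent.LibSlthree4

/-!
From a short list of relations to the `B₂`-relations.
-/

set_option autoImplicit false
set_option linter.all false

namespace CfsgLib.Spfour

open CfsgLib.Slthree.Dat3 (cn cn_apply cn_mul cn_inv_cn cn_cn cn_comm zero_of_add neg_of_add)

section der

variable {G : Type*} [Group G] {F : Type*} [Field F]

/-- short list of relations -/
structure Dat4 (x1 x4 : F → G) (h1 h4 n1 n4 : G) (ζ : F) (N : ℕ) : Prop where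
  hζN : ζ ^ N = -1
  hζ : ∀ a : F, a ≠ 0 → ∃ n : ℕ, a = ζ ^ n
  D4 : CfsgLib.Sltwo.Dat x4 h4 n4 ζ
  add1 : ∀ a b, x1 (a + b) = x1 a * x1 b
  a4 : ∀ a, h4⁻¹ * x1 a * h4 = x1 (ζ * a)
  e1 : Commute h1 h4
  e2 : Commute (x1 1) (h1 * (h4 * h4))
  e3 : n1 * h4 * n1⁻¹ = h4 * h1
  e4 : n1 * h1 * n1⁻¹ = h1⁻¹
  e5 : x1 1 * n1 * x1 1 * n1⁻¹ * x1 1 = n1
  e6 : n4 * h1 * n4⁻¹ = h1 * (h4 * h4)
  e7 : Commute (x4 1) (h4 * h1)
  e8 : n1 * n4 * n1 * n4 = n4 * n1 * n4 * n1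
  e9 : n1 * (n4 * (x1 1)⁻¹ * n4⁻¹) * n1⁻¹ = (n4 * (x1 1)⁻¹ * n4⁻¹)⁻¹
  e10 : Commute n4 (n1 * x4 1 * n1⁻¹)
  e11 : Commute (x4 1) (n4 * (x1 1)⁻¹ * n4⁻¹)
  e12 : Commute (x4 1) (n1 * x4 1 * n1⁻¹)
  e13 : Commute (x1 1) (n1 * x4 1 * n1⁻¹)
  e14 : x1 1 * x4 1 = x4 1 * ((n4 * (x1 1)⁻¹ * n4⁻¹) * (n1 * x4 1 * n1⁻¹)) * x1 1
  e15 : x1 1 * (n4 * (x1 1)⁻¹ * n4⁻¹) = (n4 * (x1 1)⁻¹ * n4⁻¹) * ((n1 * x4 1 * n1⁻¹) * (n1 * x4 1 * n1⁻¹)) * x1 1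

variable {x1 x4 : F → G} {h1 h4 n1 n4 : G} {ζ : F} {N : ℕ}

namespace Dat4

/-- the other root groups -/
def x2 (x4 : F → G) (n1 : G) (a : F) : G := cn n1 (x4 a)
def x3 (x1 : F → G) (n4 : G) (a : F) : G := cn n4 (x1 (-a))

theorem hζ0 (D : Dat4 x1 x4 h1 h4 n1 n4 ζ N) : ζ ≠ 0 := D.D4.hζ0

/-- induction over the field along powers of `ζ` -/
theorem ind (D : Dat4 x1 x4 h1 h4 n1 n4 ζ N) {P : F → Prop} (h0 : P 0) (h1 : P 1) (hs : ∀ a, P a → P (ζ * a)) (a : F) : P a := by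
  by_cases ha : a = 0
  · rw [ha]; exact h0
  · obtain ⟨n, rfl⟩ := D.hζ a ha
    clear ha
    induction n with
    | zero => rwa [pow_zero]
    | succ n ih => rw [pow_succ']; exact hs _ ih

theorem ind2 [Fintype F] (D : Dat4 x1 x4 h1 h4 n1 n4 ζ N) {P : F → Prop} (h0 : P 0) (hadd : ∀ a b, P a → P b → P (a + b))
    (h1 : P 1) (hs : ∀ a, P a → P (ζ ^ 2 * a)) (a : F) : P a := by
  obtain ⟨y, z, rfl⟩ := CfsgLib.Sltwo.two_sq a
  have key : ∀ y : F, P (y ^ 2) := by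
    intro y
    by_cases hy : y = 0
    · rw [hy]
      have : (0 : F) ^ 2 = 0 := by ring
      rw [this]; exact h0
    · obtain ⟨n, hn⟩ := D.hζ y hy
      rw [hn]
      clear hn hy
      induction n with
      | zero => simpa using h1
      | succ n ih =>
        have : (ζ ^ (n + 1)) ^ 2 = ζ ^ 2 * (ζ ^ n) ^ 2 := by ring
        rw [this]; exact hs _ ih
  exact hadd _ _ (key y) (key z)

theorem A41i (D : Dat4 x1 x4 h1 h4 n1 n4 ζ N) (a : F) : cn h4⁻¹ (x1 a) = x1 (ζ * a) := by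
  rw [cn_apply, inv_inv]; exact D.a4 a

theorem A41 (D : Dat4 x1 x4 h1 h4 n1 n4 ζ N) (a : F) : cn h4 (x1 a) = x1 (ζ⁻¹ * a) := by
  have h := D.a4 (ζ⁻¹ * a)
  rw [mul_inv_cancel_left₀ D.hζ0] at h
  rw [cn_apply, ← h]; group

theorem cn_of_comm {u w : G} (h : Commute u w) : cn w u = u := by
  rw [cn_apply, ← h.eq]; group

theorem A11z (D : Dat4 x1 x4 h1 h4 n1 n4 ζ N) (a : F) : cn (h1 * (h4 * h4)) (x1 a) = x1 a := by
  refine D.ind (P := fun a => cn (h1 * (h4 * h4)) (x1 a) = x1 a) ?_ (cn_of_comm D.e2) ?_ a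
  · rw [zero_of_add D.add1, map_one]
  · intro a ha
    have hc : cn h4⁻¹ (h1 * (h4 * h4)) = h1 * (h4 * h4) := by
      have : Commute (h1 * (h4 * h4)) h4⁻¹ := (D.e1.mul_left ((Commute.refl h4).mul_left (Commute.refl h4))).inv_right
      exact cn_of_comm this
    calc cn (h1 * (h4 * h4)) (x1 (ζ * a)) = cn (cn h4⁻¹ (h1 * (h4 * h4))) (cn h4⁻¹ (x1 a)) := by rw [hc, D.A41i]
      _ = cn h4⁻¹ (cn (h1 * (h4 * h4)) (x1 a)) := cn_cn _ _ _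
      _ = _ := by rw [ha, D.A41i]

theorem A11 (D : Dat4 x1 x4 h1 h4 n1 n4 ζ N) (a : F) : cn h1 (x1 a) = x1 (ζ ^ 2 * a) := by
  have e : x1 a = cn (h4 * h4) (x1 (ζ ^ 2 * a)) := by
    rw [cn_mul, D.A41, D.A41]
    congr 1
    have := D.hζ0
    field_simp
  rw [e, ← cn_mul, D.A11z]

theorem A44 (D : Dat4 x1 x4 h1 h4 n1 n4 ζ N) (a : F) : cn h4 (x4 a) = x4 (ζ ^ 2 * a) := D.D4.hh a

theorem A44i (D : Dat4 x1 x4 h1 h4 n1 n4 ζ N) (a : F) : cn h4⁻¹ (x4 a) = x4 ((ζ ^ 2)⁻¹ * a) := by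
  have h := D.A44 ((ζ ^ 2)⁻¹ * a)
  rw [mul_inv_cancel_left₀ (pow_ne_zero 2 D.hζ0)] at h
  rw [← h, cn_inv_cn]

theorem A14z [Fintype F] (D : Dat4 x1 x4 h1 h4 n1 n4 ζ N) (a : F) : cn (h4 * h1) (x4 a) = x4 a := by
  refine D.ind2 (P := fun a => cn (h4 * h1) (x4 a) = x4 a) ?_ ?_ (cn_of_comm D.e7) ?_ a
  · rw [zero_of_add D.D4.hadd, map_one]
  · intro a b ha hb
    rw [D.D4.hadd, map_mul, ha, hb]
  · intro a ha
    have hc : cn h4 (h4 * h1) = h4 * h1 := by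
      have : Commute (h4 * h1) h4 := (Commute.refl h4).mul_left D.e1
      exact cn_of_comm this
    calc cn (h4 * h1) (x4 (ζ ^ 2 * a)) = cn (cn h4 (h4 * h1)) (cn h4 (x4 a)) := by rw [hc, D.A44]
      _ = cn h4 (cn (h4 * h1) (x4 a)) := cn_cn _ _ _
      _ = _ := by rw [ha, D.A44]

theorem A14 [Fintype F] (D : Dat4 x1 x4 h1 h4 n1 n4 ζ N) (a : F) : cn h1 (x4 a) = x4 ((ζ ^ 2)⁻¹ * a) := by
  have h := D.A14z a
  rw [cn_mul] at h
  rw [← D.A44i, ← h, cn_inv_cn, h]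

theorem A14i [Fintype F] (D : Dat4 x1 x4 h1 h4 n1 n4 ζ N) (a : F) : cn h1⁻¹ (x4 a) = x4 (ζ ^ 2 * a) := by
  have h := D.A14 (ζ ^ 2 * a)
  rw [inv_mul_cancel_left₀ (pow_ne_zero 2 D.hζ0)] at h
  rw [← h, cn_inv_cn]

/-- conjugation through -/
theorem conj_T (w t w' g : G) (h : cn t w' = w) : cn w (cn t g) = cn t (cn w' g) := by
  rw [← h, cn_cn]

theorem k1 (D : Dat4 x1 x4 h1 h4 n1 n4 ζ N) : cn n1 h1⁻¹ = h1 := by
  rw [map_inv]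
  have : cn n1 h1 = h1⁻¹ := D.e4
  rw [this, inv_inv]

theorem k2 (D : Dat4 x1 x4 h1 h4 n1 n4 ζ N) : cn n1 (h4 * h1) = h4 := by
  have h : cn n1 h1 = h1⁻¹ := D.e4
  have h' : cn n1 h4 = h4 * h1 := D.e3
  rw [map_mul, h, h', mul_assoc, mul_inv_cancel, mul_one]

theorem ht4 (D : Dat4 x1 x4 h1 h4 n1 n4 ζ N) : cn n4 h4 = h4⁻¹ := D.D4.ht

theorem k3 (D : Dat4 x1 x4 h1 h4 n1 n4 ζ N) : cn n4 h4⁻¹ = h4 := by
  rw [map_inv, D.ht4, inv_inv]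

theorem k4 (D : Dat4 x1 x4 h1 h4 n1 n4 ζ N) : cn n4 (h1 * (h4 * h4)) = h1 := by
  have h : cn n4 h1 = h1 * (h4 * h4) := D.e6
  rw [map_mul, map_mul, h, D.ht4]; group

theorem A12 [Fintype F] (D : Dat4 x1 x4 h1 h4 n1 n4 ζ N) (a : F) : cn h1 (x2 x4 n1 a) = x2 x4 n1 (ζ ^ 2 * a) := by
  unfold x2
  rw [conj_T h1 n1 h1⁻¹ _ D.k1, D.A14i]

theorem A42 [Fintype F] (D : Dat4 x1 x4 h1 h4 n1 n4 ζ N) (a : F) : cn h4 (x2 x4 n1 a) = x2 x4 n1 a := by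
  unfold x2
  rw [conj_T h4 n1 (h4 * h1) _ D.k2, D.A14z]

theorem A13 (D : Dat4 x1 x4 h1 h4 n1 n4 ζ N) (a : F) : cn h1 (x3 x1 n4 a) = x3 x1 n4 a := by
  unfold x3
  rw [conj_T h1 n4 (h1 * (h4 * h4)) _ D.k4, D.A11z]

theorem A43 (D : Dat4 x1 x4 h1 h4 n1 n4 ζ N) (a : F) : cn h4 (x3 x1 n4 a) = x3 x1 n4 (ζ * a) := by
  unfold x3
  rw [conj_T h4 n4 h4⁻¹ _ D.k3, D.A41i, mul_neg]

theorem add2 (D : Dat4 x1 x4 h1 h4 n1 n4 ζ N) (a b : F) : x2 x4 n1 (a + b) = x2 x4 n1 a * x2 x4 n1 b := by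
  unfold x2; rw [D.D4.hadd, map_mul]

theorem add3 (D : Dat4 x1 x4 h1 h4 n1 n4 ζ N) (a b : F) : x3 x1 n4 (a + b) = x3 x1 n4 a * x3 x1 n4 b := by
  unfold x3; rw [← map_mul, ← D.add1]; congr 2; ring

theorem x21 (D : Dat4 x1 x4 h1 h4 n1 n4 ζ N) : x2 x4 n1 1 = n1 * x4 1 * n1⁻¹ := rfl

theorem x31 (D : Dat4 x1 x4 h1 h4 n1 n4 ζ N) : x3 x1 n4 1 = n4 * (x1 1)⁻¹ * n4⁻¹ := by
  unfold x3; rw [neg_of_add D.add1, cn_apply]

/-- the first rank one group -/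
theorem D1 (D : Dat4 x1 x4 h1 h4 n1 n4 ζ N) : CfsgLib.Sltwo.Dat x1 h1 n1 ζ where
  hζ0 := D.hζ0
  hadd := D.add1
  hh := D.A11
  ht := D.e4
  r1 := D.e5
  rz := by
    have a1 : x1 ζ = h4⁻¹ * x1 1 * h4 := by rw [D.a4, mul_one]
    have a2 : x1 ζ⁻¹ = (h4 * h1)⁻¹ * x1 1 * (h4 * h1) := by
      have : cn (h4 * h1) (x1 ζ⁻¹) = x1 1 := by
        rw [cn_mul, D.A11, D.A41]
        congr 1
        have := D.hζ0
        field_simp
      rw [cn_apply] at this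
      rw [← this]; group
    have k2 : n1 * (h4 * h1) * n1⁻¹ = h4 := D.k2
    have a3 : n1 * (h4 * h1)⁻¹ = h4⁻¹ * n1 := by
      calc n1 * (h4 * h1)⁻¹ = (n1 * (h4 * h1) * n1⁻¹)⁻¹ * n1 := by group
        _ = _ := by rw [k2]
    have a4 : (h4 * h1) * n1⁻¹ = n1⁻¹ * h4 := by
      calc (h4 * h1) * n1⁻¹ = n1⁻¹ * (n1 * (h4 * h1) * n1⁻¹) := by group
        _ = _ := by rw [k2]
    have e3 := D.e3
    calc x1 ζ * n1 * x1 ζ⁻¹ * n1⁻¹ * x1 ζ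
        = (h4⁻¹ * x1 1 * h4) * (n1 * (h4 * h1)⁻¹) * x1 1 * ((h4 * h1) * n1⁻¹) * (h4⁻¹ * x1 1 * h4) := by
          rw [a1, a2]; group
      _ = h4⁻¹ * (x1 1 * n1 * x1 1 * n1⁻¹ * x1 1) * h4 := by rw [a3, a4]; group
      _ = h4⁻¹ * (n1 * h4 * n1⁻¹) * n1 := by rw [D.e5]; group
      _ = h1 * n1 := by rw [e3]; group

theorem qq {x : F → G} {h t : G} {ζ : F} (D : CfsgLib.Sltwo.Dat x h t ζ) (hζ : ∀ a : F, a ≠ 0 → ∃ n : ℕ, a = ζ ^ n) (a : F)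
    (ha : a ≠ 0) : ∃ (c d : F) (i : ℤ), t * x a * t⁻¹ = x c * h ^ i * t * x d := by
  obtain ⟨n, hn⟩ := hζ a⁻¹ (inv_ne_zero ha)
  have h1 := D.hR n
  rw [← hn, inv_inv] at h1
  refine ⟨-a⁻¹, -a⁻¹, (n : ℤ), ?_⟩
  rw [zpow_natCast, D.xneg]
  calc t * x a * t⁻¹ = (x a⁻¹)⁻¹ * (x a⁻¹ * t * x a * t⁻¹ * x a⁻¹) * (x a⁻¹)⁻¹ := by group
    _ = _ := by rw [h1]; group

theorem m13 (D : Dat4 x1 x4 h1 h4 n1 n4 ζ N) (a : F) : cn n1 (x3 x1 n4 a) = x3 x1 n4 (-a) := by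
  refine D.ind (P := fun a => cn n1 (x3 x1 n4 a) = x3 x1 n4 (-a)) ?_ ?_ ?_ a
  · rw [neg_zero, zero_of_add D.add3, map_one]
  · rw [neg_of_add D.add3, D.x31]; exact D.e9
  · intro a ha
    have h' : cn n1 h4 = h4 * h1 := D.e3
    rw [← D.A43, ← cn_cn, h', ha, cn_mul, D.A13, D.A43, mul_neg]

theorem m42 [Fintype F] (D : Dat4 x1 x4 h1 h4 n1 n4 ζ N) (a : F) : cn n4 (x2 x4 n1 a) = x2 x4 n1 a := by
  refine D.ind2 (P := fun a => cn n4 (x2 x4 n1 a) = x2 x4 n1 a) ?_ ?_ (cn_of_comm D.e10.symm) ?_ a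
  · rw [zero_of_add D.add2, map_one]
  · intro a b ha hb
    rw [D.add2, map_mul, ha, hb]
  · intro a ha
    have h' : cn n4 h1 = h1 * (h4 * h4) := D.e6
    rw [← D.A12, ← cn_cn, h', ha, cn_mul, cn_mul, D.A42, D.A42]

theorem comm_ind2 [Fintype F] (D : Dat4 x1 x4 h1 h4 n1 n4 ζ N) (u : G) {y : F → G} (h : ∀ a b, y (a + b) = y a * y b)
    (h1 : Commute u (y 1)) (hs : ∀ a, Commute u (y a) → Commute u (y (ζ ^ 2 * a))) (b : F) : Commute u (y b) := by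
  refine D.ind2 (P := fun b => Commute u (y b)) ?_ ?_ h1 hs b
  · rw [zero_of_add h]; exact Commute.one_right _
  · intro a b ha hb
    rw [h]; exact ha.mul_right hb

theorem c34 [Fintype F] (D : Dat4 x1 x4 h1 h4 n1 n4 ζ N) (a b : F) : Commute (x3 x1 n4 a) (x4 b) := by
  have s1 : ∀ b, Commute (x3 x1 n4 1) (x4 b) := by
    intro b
    refine D.comm_ind2 (x3 x1 n4 1) D.D4.hadd (by rw [D.x31]; exact D.e11.symm) ?_ b
    intro a ha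
    have := cn_comm h1⁻¹ _ _ ha
    have e : cn h1⁻¹ (x3 x1 n4 1) = x3 x1 n4 1 := by
      conv_lhs => rw [← D.A13 1]
      rw [cn_inv_cn]
    rwa [e, D.A14i] at this
  refine D.ind (P := fun a => ∀ b, Commute (x3 x1 n4 a) (x4 b)) ?_ s1 ?_ a b
  · intro b; rw [zero_of_add D.add3]; exact Commute.one_left _
  · intro a ha b
    have := cn_comm h4 _ _ (ha ((ζ ^ 2)⁻¹ * b))
    rwa [D.A43, D.A44, mul_inv_cancel_left₀ (pow_ne_zero 2 D.hζ0)] at this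

theorem c24 [Fintype F] (D : Dat4 x1 x4 h1 h4 n1 n4 ζ N) (a b : F) : Commute (x2 x4 n1 a) (x4 b) := by
  have s1 : ∀ b, Commute (x2 x4 n1 1) (x4 b) := by
    intro b
    refine D.comm_ind2 (x2 x4 n1 1) D.D4.hadd D.e12.symm ?_ b
    intro a ha
    have := cn_comm h4 _ _ ha
    rwa [D.A42, D.A44] at this
  have s2 : ∀ a b, Commute (x4 b) (x2 x4 n1 a) := by
    intro a
    refine D.ind2 (P := fun a => ∀ b, Commute (x4 b) (x2 x4 n1 a)) ?_ ?_ (fun b => (s1 b).symm) ?_ a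
    · intro b; rw [zero_of_add D.add2]; exact Commute.one_right _
    · intro a c ha hc b
      rw [D.add2]; exact (ha b).mul_right (hc b)
    · intro a ha b
      have := cn_comm h1 _ _ (ha (ζ ^ 2 * b))
      rwa [D.A12, D.A14, inv_mul_cancel_left₀ (pow_ne_zero 2 D.hζ0)] at this
  exact (s2 a b).symm

theorem c12 [Fintype F] (D : Dat4 x1 x4 h1 h4 n1 n4 ζ N) (a b : F) : Commute (x1 a) (x2 x4 n1 b) := by
  have s1 : ∀ a, Commute (x1 a) (x2 x4 n1 1) := by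
    intro a
    refine D.ind (P := fun a => Commute (x1 a) (x2 x4 n1 1)) ?_ D.e13 ?_ a
    · rw [zero_of_add D.add1]; exact Commute.one_left _
    · intro a ha
      have := cn_comm h4⁻¹ _ _ ha
      have e : cn h4⁻¹ (x2 x4 n1 1) = x2 x4 n1 1 := by
        conv_lhs => rw [← D.A42 1]
        rw [cn_inv_cn]
      rwa [e, D.A41i] at this
  refine D.ind2 (P := fun b => ∀ a, Commute (x1 a) (x2 x4 n1 b)) ?_ ?_ s1 ?_ b a
  · intro a; rw [zero_of_add D.add2]; exact Commute.one_right _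
  · intro b c hb hc a
    rw [D.add2]; exact (hb a).mul_right (hc a)
  · intro b hb a
    have := cn_comm h1 _ _ (hb ((ζ ^ 2)⁻¹ * a))
    rwa [D.A12, D.A11, mul_inv_cancel_left₀ (pow_ne_zero 2 D.hζ0)] at this

theorem c23 [Fintype F] (D : Dat4 x1 x4 h1 h4 n1 n4 ζ N) (a b : F) : Commute (x2 x4 n1 a) (x3 x1 n4 b) := by
  have := cn_comm n1 _ _ (D.c34 (-b) a)
  rw [D.m13, neg_neg] at this
  exact this.symm

theorem zz1 (D : Dat4 x1 x4 h1 h4 n1 n4 ζ N) : cn (h1 * (h4 * h4)) (x1 1) = x1 1 := D.A11z 1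

theorem zz4 [Fintype F] (D : Dat4 x1 x4 h1 h4 n1 n4 ζ N) (b : F) : cn (h1 * (h4 * h4)) (x4 b) = x4 (ζ ^ 2 * b) := by
  rw [cn_mul, cn_mul, D.A44, D.A44, D.A14]
  congr 1
  have := D.hζ0
  field_simp

theorem zz3 (D : Dat4 x1 x4 h1 h4 n1 n4 ζ N) (b : F) : cn (h1 * (h4 * h4)) (x3 x1 n4 b) = x3 x1 n4 (ζ ^ 2 * b) := by
  rw [cn_mul, cn_mul, D.A43, D.A43, D.A13]
  congr 1
  ring

theorem zz2 [Fintype F] (D : Dat4 x1 x4 h1 h4 n1 n4 ζ N) (b : F) : cn (h1 * (h4 * h4)) (x2 x4 n1 b) = x2 x4 n1 (ζ ^ 2 * b) := by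
  rw [cn_mul, cn_mul, D.A42, D.A42, D.A12]

/-- the first commutator relation -/
theorem c13 [Fintype F] (D : Dat4 x1 x4 h1 h4 n1 n4 ζ N) (a b : F) :
    x1 a * x3 x1 n4 b = x3 x1 n4 b * x2 x4 n1 (2 * a * b) * x1 a := by
  have s1 : ∀ b, x1 1 * x3 x1 n4 b = x3 x1 n4 b * x2 x4 n1 (2 * b) * x1 1 := by
    intro b
    refine D.ind2 (P := fun b => x1 1 * x3 x1 n4 b = x3 x1 n4 b * x2 x4 n1 (2 * b) * x1 1) ?_ ?_ ?_ ?_ b
    · rw [mul_zero, zero_of_add D.add3, zero_of_add D.add2]; simp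
    · intro b c hb hc
      rw [D.add3, mul_add, D.add2]
      calc x1 1 * (x3 x1 n4 b * x3 x1 n4 c) = (x1 1 * x3 x1 n4 b) * x3 x1 n4 c := by group
        _ = x3 x1 n4 b * x2 x4 n1 (2 * b) * (x1 1 * x3 x1 n4 c) := by rw [hb]; group
        _ = x3 x1 n4 b * (x2 x4 n1 (2 * b) * x3 x1 n4 c) * x2 x4 n1 (2 * c) * x1 1 := by rw [hc]; group
        _ = x3 x1 n4 b * (x3 x1 n4 c * x2 x4 n1 (2 * b)) * x2 x4 n1 (2 * c) * x1 1 := by rw [(D.c23 (2 * b) c).eq]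
        _ = _ := by group
    · have h2 : x2 x4 n1 (2 * 1) = x2 x4 n1 1 * x2 x4 n1 1 := by rw [← D.add2]; congr 1; ring
      rw [h2, D.x31, D.x21]
      exact D.e15
    · intro b hb
      have := congrArg (cn (h1 * (h4 * h4))) hb
      simp only [map_mul (cn (h1 * (h4 * h4))), D.A11z, D.zz3, D.zz2] at this
      rw [this]
      congr 3
      ring
  refine D.ind (P := fun a => ∀ b, x1 a * x3 x1 n4 b = x3 x1 n4 b * x2 x4 n1 (2 * a * b) * x1 a) ?_ ?_ ?_ a b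
  · intro b; rw [mul_zero, zero_mul, zero_of_add D.add1, zero_of_add D.add2]; simp
  · intro b; rw [mul_one]; exact s1 b
  · intro a ha b
    have h2 := congrArg (cn h4⁻¹) (ha (ζ * b))
    have e3 : cn h4⁻¹ (x3 x1 n4 (ζ * b)) = x3 x1 n4 b := by rw [← D.A43, cn_inv_cn]
    have e2 : ∀ c, cn h4⁻¹ (x2 x4 n1 c) = x2 x4 n1 c := by
      intro c
      conv_lhs => rw [← D.A42 c]
      rw [cn_inv_cn]
    simp only [map_mul (cn h4⁻¹), D.A41i, e3, e2] at h2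
    rw [h2]
    congr 3
    ring

theorem c14 [Fintype F] (D : Dat4 x1 x4 h1 h4 n1 n4 ζ N) (a b : F) :
    x1 a * x4 b = x4 b * (x3 x1 n4 (a * b) * x2 x4 n1 (a ^ 2 * b)) * x1 a := by
  have s1 : ∀ b, x1 1 * x4 b = x4 b * (x3 x1 n4 b * x2 x4 n1 b) * x1 1 := by
    intro b
    refine D.ind2 (P := fun b => x1 1 * x4 b = x4 b * (x3 x1 n4 b * x2 x4 n1 b) * x1 1) ?_ ?_ ?_ ?_ b
    · rw [zero_of_add D.add3, zero_of_add D.add2, zero_of_add D.D4.hadd]; simp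
    · intro b c hb hc
      rw [D.add3, D.D4.hadd, D.add2]
      have q1 := (D.c24 b c).eq
      have q2 := (D.c34 b c).eq
      have q3 := (D.c23 b c).eq
      calc x1 1 * (x4 b * x4 c) = (x1 1 * x4 b) * x4 c := by group
        _ = x4 b * (x3 x1 n4 b * x2 x4 n1 b) * (x1 1 * x4 c) := by rw [hb]; group
        _ = x4 b * x3 x1 n4 b * (x2 x4 n1 b * x4 c) * (x3 x1 n4 c * x2 x4 n1 c) * x1 1 := by rw [hc]; group
        _ = x4 b * (x3 x1 n4 b * x4 c) * (x2 x4 n1 b * x3 x1 n4 c) * x2 x4 n1 c * x1 1 := by rw [q1]; group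
        _ = _ := by rw [q2, q3]; group
    · rw [D.x31, D.x21]
      exact D.e14
    · intro b hb
      have := congrArg (cn (h1 * (h4 * h4))) hb
      simp only [map_mul (cn (h1 * (h4 * h4))), D.A11z, D.zz3, D.zz2, D.zz4] at this
      exact this
  refine D.ind (P := fun a => ∀ b, x1 a * x4 b = x4 b * (x3 x1 n4 (a * b) * x2 x4 n1 (a ^ 2 * b)) * x1 a) ?_ ?_ ?_ a b
  · intro b
    have : (0 : F) ^ 2 * b = 0 := by ring
    rw [zero_mul, this, zero_of_add D.add1, zero_of_add D.add2, zero_of_add D.add3]; simp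
  · intro b
    have : (1 : F) ^ 2 * b = b := by ring
    rw [one_mul, this]; exact s1 b
  · intro a ha b
    have h2 := congrArg (cn h4⁻¹) (ha (ζ ^ 2 * b))
    have e3 : ∀ c, cn h4⁻¹ (x3 x1 n4 (ζ * c)) = x3 x1 n4 c := by intro c; rw [← D.A43, cn_inv_cn]
    have e2 : ∀ c, cn h4⁻¹ (x2 x4 n1 c) = x2 x4 n1 c := by
      intro c
      conv_lhs => rw [← D.A42 c]
      rw [cn_inv_cn]
    have e4 : a * (ζ ^ 2 * b) = ζ * (ζ * a * b) := by ring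
    rw [e4] at h2
    simp only [map_mul (cn h4⁻¹), D.A41i, e3, e2, D.A44i] at h2
    rw [inv_mul_cancel_left₀ (pow_ne_zero 2 D.hζ0)] at h2
    rw [h2]
    congr 4
    ring

/-- the full set of relations -/
theorem bn2 [Fintype F] (D : Dat4 x1 x4 h1 h4 n1 n4 ζ N) : BN2 x1 (x2 x4 n1) (x3 x1 n4) x4 h1 h4 n1 n4 := by
  have h0 := D.hζ0
  have t11 : NX h1 x1 x1 := ⟨ζ ^ 2, pow_ne_zero 2 h0, D.A11⟩
  have t14 : NX h1 x4 x4 := ⟨_, inv_ne_zero (pow_ne_zero 2 h0), D.A14⟩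
  have t41 : NX h4 x1 x1 := ⟨_, inv_ne_zero h0, D.A41⟩
  have t44 : NX h4 x4 x4 := ⟨_, pow_ne_zero 2 h0, D.A44⟩
  have s1 := (D.D1.tt D.hζN).1
  have s4 := (D.D4.tt D.hζN).1
  exact
    { add1 := D.add1
      add2 := D.add2
      add3 := D.add3
      add4 := D.D4.hadd
      c23 := D.c23
      c24 := D.c24
      c34 := D.c34
      c12 := D.c12
      c13 := fun a b => ⟨_, D.c13 a b⟩
      c14 := fun a b => ⟨_, _, D.c14 a b⟩
      hh := D.e1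
      t11 := t11
      t12 := ⟨ζ ^ 2, pow_ne_zero 2 h0, D.A12⟩
      t13 := ⟨1, one_ne_zero, fun a => by rw [one_mul]; exact D.A13 a⟩
      t14 := t14
      t41 := t41
      t42 := ⟨1, one_ne_zero, fun a => by rw [one_mul]; exact D.A42 a⟩
      t43 := ⟨ζ, h0, D.A43⟩
      t44 := t44
      m12 := by
        obtain ⟨μ, hμ, h⟩ := t14.zpow (-(N : ℤ))
        refine ⟨μ, hμ, fun a => ?_⟩
        rw [← h, ← s1]
        unfold x2
        rw [cn_apply]; group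
      m14 := ⟨1, one_ne_zero, fun a => by rw [one_mul]; rfl⟩
      m13 := ⟨-1, neg_ne_zero.2 one_ne_zero, fun a => by rw [neg_one_mul]; exact D.m13 a⟩
      m41 := ⟨-1, neg_ne_zero.2 one_ne_zero, fun a => by rw [neg_one_mul]; unfold x3; rw [neg_neg]; rfl⟩
      m43 := by
        obtain ⟨μ, hμ, h⟩ := t41.zpow (-(N : ℤ))
        refine ⟨-μ, neg_ne_zero.2 hμ, fun a => ?_⟩
        have e : -μ * a = μ * (-a) := by ring
        rw [e, ← h, ← s4]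
        unfold x3
        rw [cn_apply]; group
      m42 := ⟨1, one_ne_zero, fun a => by rw [one_mul]; exact D.m42 a⟩
      w11 := D.e4
      w14 := D.e3
      w44 := D.D4.ht
      w41 := D.e6
      s1 := ⟨_, s1⟩
      s4 := ⟨_, s4⟩
      q1 := qq D.D1 D.hζ
      q4 := qq D.D4 D.hζ
      br := D.e8 }

end Dat4

end der

end CfsgLib.Spfour
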