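import Cfsg.Agent.LibSpfour3
import Cfsg.Agent.LibH22Sp2
import Cfsg.Agent.LibH22SpOrder
import Cfsg.Agent.LibH22Sp3

/-!
Matrices for the presentation of `Sp₄(q)`.
-/

set_option autoImplicit false
set_option linter.all false

namespace CfsgLib.Spfour

open Matrix
open CfsgLib.Slthree.Dat3 (cn cn_apply cn_mul cn_inv_cn cn_cn cn_comm zero_of_add neg_of_add)

section mat

variable {F : Type*} [Field F]

abbrev Sp4 (F : Type*) [Field F] := Matrix.symplecticGroup (Fin 2) F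

theorem mem_of (A B C D : Matrix (Fin 2) (Fin 2) F) (h1 : A * Bᵀ = B * Aᵀ) (h2 : C * Dᵀ = D * Cᵀ) (h3 : A * Dᵀ - B * Cᵀ = 1) :
    fromBlocks A B C D ∈ Matrix.symplecticGroup (Fin 2) F := by
  rw [SymplecticGroup.mem_iff]
  unfold Matrix.J
  rw [fromBlocks_transpose, fromBlocks_multiply, fromBlocks_multiply]
  have h3' : D * Aᵀ - C * Bᵀ = 1 := by
    have := congrArg Matrix.transpose h3
    simpa [Matrix.transpose_sub, Matrix.transpose_mul] using this
  congr 1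
  · simp only [Matrix.mul_zero, Matrix.mul_one, Matrix.mul_neg, zero_add, add_zero, Matrix.neg_mul]
    rw [h1]; simp
  · simp only [Matrix.mul_zero, Matrix.mul_one, Matrix.mul_neg, zero_add, add_zero, Matrix.neg_mul]
    rw [← h3]; abel
  · simp only [Matrix.mul_zero, Matrix.mul_one, Matrix.mul_neg, zero_add, add_zero, Matrix.neg_mul]
    rw [← h3']; abel
  · simp only [Matrix.mul_zero, Matrix.mul_one, Matrix.mul_neg, zero_add, add_zero, Matrix.neg_mul]
    rw [h2]; simp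

def X1 (a : F) : Sp4 F := ⟨fromBlocks !![1, a; 0, 1] 0 0 !![1, 0; -a, 1], by
  apply mem_of
  · simp
  · simp
  · ext i j; fin_cases i <;> fin_cases j <;> simp [Matrix.mul_apply, Matrix.vecMul, dotProduct, Fin.sum_univ_two]⟩

def X2 (a : F) : Sp4 F := ⟨fromBlocks 1 !![a, 0; 0, 0] 0 1, by
  apply mem_of
  · ext i j; fin_cases i <;> fin_cases j <;> simp [Matrix.mul_apply, Matrix.vecMul, dotProduct, Fin.sum_univ_two]
  · simp
  · simp⟩

def X3 (a : F) : Sp4 F := ⟨fromBlocks 1 !![0, a; a, 0] 0 1, by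
  apply mem_of
  · ext i j; fin_cases i <;> fin_cases j <;> simp [Matrix.mul_apply, Matrix.vecMul, dotProduct, Fin.sum_univ_two]
  · simp
  · simp⟩

/-- the embedding of `SL₂` -/
def io (g : Matrix.SpecialLinearGroup (Fin 2) F) : Sp4 F :=
  ⟨fromBlocks !![1, 0; 0, g.1 0 0] !![0, 0; 0, g.1 0 1] !![0, 0; 0, g.1 1 0] !![1, 0; 0, g.1 1 1], by
  have hdet : g.1 0 0 * g.1 1 1 - g.1 0 1 * g.1 1 0 = 1 := by
    have := g.2
    rwa [Matrix.det_fin_two] at this
  apply mem_of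
  · ext i j; fin_cases i <;> fin_cases j <;> simp [Matrix.mul_apply, Matrix.vecMul, dotProduct, Fin.sum_univ_two, mul_comm]
  · ext i j; fin_cases i <;> fin_cases j <;> simp [Matrix.mul_apply, Matrix.vecMul, dotProduct, Fin.sum_univ_two, mul_comm]
  · ext i j; fin_cases i <;> fin_cases j <;> simp [Matrix.mul_apply, Matrix.vecMul, dotProduct, Fin.sum_univ_two, hdet]⟩

theorem s4_ext {A B : Sp4 F} (h : A.1 = B.1) : A = B := Subtype.ext h

theorem v_mul (A B : Sp4 F) : (A * B).1 = A.1 * B.1 := rfl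

theorem io_mul (g h : Matrix.SpecialLinearGroup (Fin 2) F) : io (g * h) = io g * io h := by
  apply s4_ext
  rw [v_mul]
  simp only [io]
  rw [fromBlocks_multiply, CfsgLib.Sltwo.mul00, CfsgLib.Sltwo.mul01, CfsgLib.Sltwo.mul10, CfsgLib.Sltwo.mul11]
  congr 1 <;> (ext i j; fin_cases i <;> fin_cases j <;> simp [Matrix.mul_apply, Matrix.vecMul, dotProduct, Fin.sum_univ_two])

theorem io_one : io (1 : Matrix.SpecialLinearGroup (Fin 2) F) = 1 := by
  have h := io_mul (1 : Matrix.SpecialLinearGroup (Fin 2) F) 1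
  rw [mul_one] at h
  exact (mul_eq_left.1 h.symm)

def ioH : Matrix.SpecialLinearGroup (Fin 2) F →* Sp4 F where
  toFun := io
  map_one' := io_one
  map_mul' := io_mul

def X4 (a : F) : Sp4 F := ioH (CfsgLib.Sltwo.Xm a)
def H4 (ζ : F) (hζ : ζ ≠ 0) : Sp4 F := ioH (CfsgLib.Sltwo.Hm ζ hζ)
def N4 (F : Type*) [Field F] : Sp4 F := ioH (CfsgLib.Sltwo.Tm F)

theorem X4_val (a : F) : (X4 a).1 = fromBlocks !![1, 0; 0, 1] !![0, 0; 0, a] !![0, 0; 0, 0] !![1, 0; 0, 1] := rfl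
theorem H4_val (ζ : F) (hζ : ζ ≠ 0) : (H4 ζ hζ).1 = fromBlocks !![1, 0; 0, ζ] !![0, 0; 0, 0] !![0, 0; 0, 0] !![1, 0; 0, ζ⁻¹] := rfl
theorem N4_val : (N4 F).1 = fromBlocks !![1, 0; 0, 0] !![0, 0; 0, 1] !![0, 0; 0, -1] !![1, 0; 0, 0] := rfl

def H1 (ζ : F) (hζ : ζ ≠ 0) : Sp4 F := ⟨fromBlocks !![ζ, 0; 0, ζ⁻¹] 0 0 !![ζ⁻¹, 0; 0, ζ], by
  apply mem_of
  · simp
  · simp
  · ext i j; fin_cases i <;> fin_cases j <;> simp [Matrix.mul_apply, Matrix.vecMul, dotProduct, Fin.sum_univ_two, hζ]⟩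

def N1 (F : Type*) [Field F] : Sp4 F := ⟨fromBlocks !![0, 1; -1, 0] 0 0 !![0, 1; -1, 0], by
  apply mem_of
  · simp
  · simp
  · ext i j; fin_cases i <;> fin_cases j <;> simp [Matrix.mul_apply, Matrix.vecMul, dotProduct, Fin.sum_univ_two]⟩

theorem X1_val (a : F) : (X1 a).1 = fromBlocks !![1, a; 0, 1] 0 0 !![1, 0; -a, 1] := rfl
theorem X2_val (a : F) : (X2 a).1 = fromBlocks 1 !![a, 0; 0, 0] 0 1 := rfl
theorem X3_val (a : F) : (X3 a).1 = fromBlocks 1 !![0, a; a, 0] 0 1 := rfl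
theorem H1_val (ζ : F) (hζ : ζ ≠ 0) : (H1 ζ hζ).1 = fromBlocks !![ζ, 0; 0, ζ⁻¹] 0 0 !![ζ⁻¹, 0; 0, ζ] := rfl
theorem N1_val : (N1 F).1 = fromBlocks !![0, 1; -1, 0] 0 0 !![0, 1; -1, 0] := rfl

theorem X1_add (a b : F) : X1 (a + b) = X1 a * X1 b := by
  apply s4_ext
  simp only [v_mul]; simp only [X1_val, fromBlocks_multiply]
  congr 1 <;> (ext i j; fin_cases i <;> fin_cases j <;> simp [Matrix.mul_apply, Matrix.vecMul, dotProduct, Fin.sum_univ_two] <;> ring)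

theorem X3_add (a b : F) : X3 (a + b) = X3 a * X3 b := by
  apply s4_ext
  simp only [v_mul]; simp only [X3_val, fromBlocks_multiply]
  congr 1 <;> (ext i j; fin_cases i <;> fin_cases j <;> simp [Matrix.mul_apply, Matrix.vecMul, dotProduct, Fin.sum_univ_two] <;> ring)

theorem r_a4 (ζ : F) (hζ : ζ ≠ 0) (a : F) : (H4 ζ hζ)⁻¹ * X1 a * H4 ζ hζ = X1 (ζ * a) := by
  rw [mul_assoc, inv_mul_eq_iff_eq_mul]
  apply s4_ext
  simp only [v_mul]; simp only [X1_val, H4_val, fromBlocks_multiply]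
  congr 1 <;> (ext i j; fin_cases i <;> fin_cases j <;> simp [Matrix.mul_apply, Matrix.vecMul, dotProduct, Fin.sum_univ_two, hζ, mul_comm])

theorem r_e1 (ζ : F) (hζ : ζ ≠ 0) : Commute (H1 ζ hζ) (H4 ζ hζ) := by
  apply s4_ext
  simp only [v_mul]; simp only [H1_val, H4_val, fromBlocks_multiply]
  congr 1 <;> (ext i j; fin_cases i <;> fin_cases j <;> simp [Matrix.mul_apply, Matrix.vecMul, dotProduct, Fin.sum_univ_two, hζ, mul_comm])

theorem r_e2 (ζ : F) (hζ : ζ ≠ 0) : Commute (X1 1) (H1 ζ hζ * (H4 ζ hζ * H4 ζ hζ)) := by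
  apply s4_ext
  simp only [v_mul]; simp only [X1_val, H1_val, H4_val, fromBlocks_multiply]
  congr 1 <;> (ext i j; fin_cases i <;> fin_cases j <;> simp [Matrix.mul_apply, Matrix.vecMul, dotProduct, Fin.sum_univ_two, hζ])

theorem r_e3 (ζ : F) (hζ : ζ ≠ 0) : N1 F * H4 ζ hζ * (N1 F)⁻¹ = H4 ζ hζ * H1 ζ hζ := by
  rw [mul_inv_eq_iff_eq_mul]
  apply s4_ext
  simp only [v_mul]; simp only [N1_val, H1_val, H4_val, fromBlocks_multiply]
  congr 1 <;> (ext i j; fin_cases i <;> fin_cases j <;> simp [Matrix.mul_apply, Matrix.vecMul, dotProduct, Fin.sum_univ_two, hζ])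

theorem r_e4 (ζ : F) (hζ : ζ ≠ 0) : N1 F * H1 ζ hζ * (N1 F)⁻¹ = (H1 ζ hζ)⁻¹ := by
  rw [mul_inv_eq_iff_eq_mul, eq_inv_mul_iff_mul_eq]
  apply s4_ext
  simp only [v_mul]; simp only [N1_val, H1_val, fromBlocks_multiply]
  congr 1 <;> (ext i j; fin_cases i <;> fin_cases j <;> simp [Matrix.mul_apply, Matrix.vecMul, dotProduct, Fin.sum_univ_two, hζ])

theorem r_e5 : X1 (1 : F) * N1 F * X1 1 * (N1 F)⁻¹ * X1 1 = N1 F := by
  have h : X1 (1 : F) * N1 F * X1 1 = N1 F * X1 (-1) * N1 F := by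
    apply s4_ext
    simp only [v_mul]; simp only [N1_val, X1_val, fromBlocks_multiply]
    congr 1 <;> (ext i j; fin_cases i <;> fin_cases j <;> simp [Matrix.mul_apply, Matrix.vecMul, dotProduct, Fin.sum_univ_two])
  rw [h, neg_of_add X1_add]; group

theorem r_e6 (ζ : F) (hζ : ζ ≠ 0) : N4 F * H1 ζ hζ * (N4 F)⁻¹ = H1 ζ hζ * (H4 ζ hζ * H4 ζ hζ) := by
  rw [mul_inv_eq_iff_eq_mul]
  apply s4_ext
  simp only [v_mul]; simp only [N4_val, H1_val, H4_val, fromBlocks_multiply]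
  congr 1 <;> (ext i j; fin_cases i <;> fin_cases j <;> simp [Matrix.mul_apply, Matrix.vecMul, dotProduct, Fin.sum_univ_two, hζ])

theorem r_e7 (ζ : F) (hζ : ζ ≠ 0) : Commute (X4 1) (H4 ζ hζ * H1 ζ hζ) := by
  apply s4_ext
  simp only [v_mul]; simp only [X4_val, H1_val, H4_val, fromBlocks_multiply]
  congr 1 <;> (ext i j; fin_cases i <;> fin_cases j <;> simp [Matrix.mul_apply, Matrix.vecMul, dotProduct, Fin.sum_univ_two, hζ])

set_option maxHeartbeats 4000000 in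
theorem r_e8 : N1 F * N4 F * N1 F * N4 F = N4 F * N1 F * N4 F * N1 F := by
  apply s4_ext
  simp only [v_mul]; simp only [N1_val, N4_val, fromBlocks_multiply]
  congr 1 <;> (ext i j; fin_cases i <;> fin_cases j <;> simp [Matrix.mul_apply, Matrix.vecMul, dotProduct, Fin.sum_univ_two])

theorem y2 (a : F) : N1 F * X4 a * (N1 F)⁻¹ = X2 a := by
  rw [mul_inv_eq_iff_eq_mul]
  apply s4_ext
  simp only [v_mul]; simp only [X4_val, X2_val, N1_val, fromBlocks_multiply]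
  congr 1 <;> (ext i j; fin_cases i <;> fin_cases j <;> simp [Matrix.mul_apply, Matrix.vecMul, dotProduct, Fin.sum_univ_two])

theorem y3 (a : F) : N4 F * (X1 a)⁻¹ * (N4 F)⁻¹ = X3 a := by
  rw [← neg_of_add X1_add, mul_inv_eq_iff_eq_mul]
  apply s4_ext
  simp only [v_mul]; simp only [X1_val, X3_val, N4_val, fromBlocks_multiply]
  congr 1 <;> (ext i j; fin_cases i <;> fin_cases j <;> simp [Matrix.mul_apply, Matrix.vecMul, dotProduct, Fin.sum_univ_two])

theorem r_e9 : N1 F * X3 1 * (N1 F)⁻¹ = (X3 1)⁻¹ := by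
  rw [← neg_of_add X3_add, mul_inv_eq_iff_eq_mul]
  apply s4_ext
  simp only [v_mul]; simp only [X3_val, N1_val, fromBlocks_multiply]
  congr 1 <;> (ext i j; fin_cases i <;> fin_cases j <;> simp [Matrix.mul_apply, Matrix.vecMul, dotProduct, Fin.sum_univ_two])

theorem r_e10 : Commute (N4 F) (X2 1) := by
  apply s4_ext
  simp only [v_mul]; simp only [X2_val, N4_val, fromBlocks_multiply]
  congr 1 <;> (ext i j; fin_cases i <;> fin_cases j <;> simp [Matrix.mul_apply, Matrix.vecMul, dotProduct, Fin.sum_univ_two])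

theorem r_e11 : Commute (X4 (1 : F)) (X3 1) := by
  apply s4_ext
  simp only [v_mul]; simp only [X4_val, X3_val, fromBlocks_multiply]
  congr 1 <;> (ext i j; fin_cases i <;> fin_cases j <;> simp [Matrix.mul_apply, Matrix.vecMul, dotProduct, Fin.sum_univ_two])

theorem r_e12 : Commute (X4 (1 : F)) (X2 1) := by
  apply s4_ext
  simp only [v_mul]; simp only [X4_val, X2_val, fromBlocks_multiply]
  congr 1 <;> (ext i j; fin_cases i <;> fin_cases j <;> simp [Matrix.mul_apply, Matrix.vecMul, dotProduct, Fin.sum_univ_two])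

theorem r_e13 : Commute (X1 (1 : F)) (X2 1) := by
  apply s4_ext
  simp only [v_mul]; simp only [X1_val, X2_val, fromBlocks_multiply]
  congr 1 <;> (ext i j; fin_cases i <;> fin_cases j <;> simp [Matrix.mul_apply, Matrix.vecMul, dotProduct, Fin.sum_univ_two])

theorem r_e14 : X1 (1 : F) * X4 1 = X4 1 * (X3 1 * X2 1) * X1 1 := by
  apply s4_ext
  simp only [v_mul]; simp only [X1_val, X2_val, X3_val, X4_val, fromBlocks_multiply]
  congr 1 <;> (ext i j; fin_cases i <;> fin_cases j <;> simp [Matrix.mul_apply, Matrix.vecMul, dotProduct, Fin.sum_univ_two])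

theorem r_e15 : X1 (1 : F) * X3 1 = X3 1 * (X2 1 * X2 1) * X1 1 := by
  apply s4_ext
  simp only [v_mul]; simp only [X1_val, X2_val, X3_val, fromBlocks_multiply]
  congr 1 <;> (ext i j; fin_cases i <;> fin_cases j <;> simp [Matrix.mul_apply, Matrix.vecMul, dotProduct, Fin.sum_univ_two])

theorem dat_map {G H : Type*} [Group G] [Group H] (φ : G →* H) {x : F → G} {h t : G} {ζ : F} (D : CfsgLib.Sltwo.Dat x h t ζ) :
    CfsgLib.Sltwo.Dat (fun a => φ (x a)) (φ h) (φ t) ζ where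
  hζ0 := D.hζ0
  hadd := fun a b => by rw [D.hadd, map_mul]
  hh := fun a => by rw [← D.hh, map_mul, map_mul, map_inv]
  ht := by rw [← map_inv, ← map_inv, ← D.ht, map_mul, map_mul, map_inv]
  r1 := by
    have := congrArg φ D.r1
    simpa only [map_mul, map_inv] using this
  rz := by
    have := congrArg φ D.rz
    simpa only [map_mul, map_inv] using this

theorem datM (ζ : F) (hζ0 : ζ ≠ 0) (N : ℕ) (hN : ζ ^ N = -1) (hζ : ∀ a : F, a ≠ 0 → ∃ n : ℕ, a = ζ ^ n) :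
    Dat4 (X1 (F := F)) X4 (H1 ζ hζ0) (H4 ζ hζ0) (N1 F) (N4 F) ζ N where
  hζN := hN
  hζ := hζ
  D4 := dat_map ioH (CfsgLib.Sltwo.dat ζ hζ0)
  add1 := X1_add
  a4 := r_a4 ζ hζ0
  e1 := r_e1 ζ hζ0
  e2 := r_e2 ζ hζ0
  e3 := r_e3 ζ hζ0
  e4 := r_e4 ζ hζ0
  e5 := r_e5
  e6 := r_e6 ζ hζ0
  e7 := r_e7 ζ hζ0
  e8 := r_e8
  e9 := by rw [y3]; exact r_e9
  e10 := by rw [y2]; exact r_e10
  e11 := by rw [y3]; exact r_e11
  e12 := by rw [y2]; exact r_e12
  e13 := by rw [y2]; exact r_e13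
  e14 := by rw [y2, y3]; exact r_e14
  e15 := by rw [y2, y3]; exact r_e15

end mat

end CfsgLib.Spfour
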