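import Cfsg.Agent.LibSpfour4

/-!
Generation of `Sp₄(q)`.
-/

set_option autoImplicit false
set_option linter.all false

namespace CfsgLib.Spfour

open Matrix
open CfsgLib.Slthree.Dat3 (cn cn_apply cn_mul cn_inv_cn cn_cn cn_comm zero_of_add neg_of_add)

section mat

variable {F : Type*} [Field F]

/-- a vector -/
def vc (a b c d : F) : Fin 2 ⊕ Fin 2 → F := Sum.elim ![a, b] ![c, d]

theorem vc_eta (v : Fin 2 ⊕ Fin 2 → F) : v = vc (v (Sum.inl 0)) (v (Sum.inl 1)) (v (Sum.inr 0)) (v (Sum.inr 1)) := by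
  ext (i | i) <;> fin_cases i <;> rfl

theorem X1_vc (t a b c d : F) : (X1 t).1 *ᵥ vc a b c d = vc (a + t * b) b c (d - t * c) := by
  rw [X1_val]
  ext (i | i) <;> fin_cases i <;>
    simp [vc, Matrix.mulVec, dotProduct, Fintype.sum_sum_type, Fin.sum_univ_two, fromBlocks]
  ring

theorem N1_vc (a b c d : F) : (N1 F).1 *ᵥ vc a b c d = vc b (-a) d (-c) := by
  rw [N1_val]
  ext (i | i) <;> fin_cases i <;>
    simp [vc, Matrix.mulVec, dotProduct, Fintype.sum_sum_type, Fin.sum_univ_two, fromBlocks]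

theorem io_vc (g : Matrix.SpecialLinearGroup (Fin 2) F) (a b c d : F) :
    (ioH g).1 *ᵥ vc a b c d = vc a (g.1 0 0 * b + g.1 0 1 * d) c (g.1 1 0 * b + g.1 1 1 * d) := by
  change (io g).1 *ᵥ vc a b c d = _
  simp only [io]
  ext (i | i) <;> fin_cases i <;>
    simp [vc, Matrix.mulVec, dotProduct, Fintype.sum_sum_type, Fin.sum_univ_two, fromBlocks]

theorem sl_trans (b d : F) (h : b ≠ 0 ∨ d ≠ 0) : ∃ g : Matrix.SpecialLinearGroup (Fin 2) F,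
    g.1 0 0 * b + g.1 0 1 * d = 1 ∧ g.1 1 0 * b + g.1 1 1 * d = 0 := by
  by_cases hb : b = 0
  · have hd : d ≠ 0 := by
      rcases h with h | h
      · exact absurd hb h
      · exact h
    refine ⟨⟨!![0, d⁻¹; -d, 0], by simp [Matrix.det_fin_two, hd]⟩, ?_, ?_⟩
    · simp [hb, hd]
    · simp [hb]
  · refine ⟨⟨!![b⁻¹, 0; -d, b], by simp [Matrix.det_fin_two, hb]⟩, ?_, ?_⟩
    · simp [hb]
    · simp; ring

/-- the group acts transitively -/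
theorem move (K : Subgroup (Sp4 F)) (hX : ∀ a, X1 a ∈ K) (hN : N1 F ∈ K) (hio : ∀ g, ioH g ∈ K)
    (v : Fin 2 ⊕ Fin 2 → F) (hv : v ≠ 0) : ∃ k ∈ K, k.1 *ᵥ v = vc 1 0 0 0 := by
  have tr : ∀ {v w u : Fin 2 ⊕ Fin 2 → F}, (∃ k ∈ K, k.1 *ᵥ v = w) → (∃ k ∈ K, k.1 *ᵥ w = u) → ∃ k ∈ K, k.1 *ᵥ v = u := by
    rintro v w u ⟨k, hk, h1⟩ ⟨l, hl, h2⟩
    refine ⟨l * k, K.mul_mem hl hk, ?_⟩
    rw [v_mul, ← Matrix.mulVec_mulVec, h1, h2]
  -- `(0,1,0,0)` goes to `(1,0,0,0)`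
  have t1 : ∃ k ∈ K, k.1 *ᵥ (vc (0 : F) 1 0 0) = vc 1 0 0 0 := ⟨N1 F, hN, by rw [N1_vc, neg_zero]⟩
  -- second plane to `(1,0)`
  have t2 : ∀ a b c d : F, (b ≠ 0 ∨ d ≠ 0) → ∃ k ∈ K, k.1 *ᵥ (vc a b c d) = vc a 1 c 0 := by
    intro a b c d h
    obtain ⟨g, h1, h2⟩ := sl_trans b d h
    exact ⟨ioH g, hio g, by rw [io_vc, h1, h2]⟩
  -- `(a,1,0,0)`
  have t3 : ∀ a : F, ∃ k ∈ K, k.1 *ᵥ (vc a 1 0 0) = vc 1 0 0 0 := by
    intro a
    refine tr ⟨X1 (-a), hX _, X1_vc _ _ _ _ _⟩ ?_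
    have e : vc (a + -a * 1) 1 0 (0 - -a * 0) = vc (0 : F) 1 0 0 := by
      congr 1 <;> ring
    rw [e]; exact t1
  -- `(a,1,c,0)`
  have t4 : ∀ a c : F, ∃ k ∈ K, k.1 *ᵥ (vc a 1 c 0) = vc 1 0 0 0 := by
    intro a c
    refine tr ⟨X1 (-a), hX _, X1_vc _ _ _ _ _⟩ ?_
    have e : a + -a * 1 = 0 := by ring
    rw [e]
    refine tr (t2 _ _ _ _ (Or.inl one_ne_zero)) ?_
    refine tr ⟨N1 F, hN, N1_vc _ _ _ _⟩ ?_
    rw [neg_zero]
    by_cases hc : c = 0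
    · rw [hc, neg_zero]
      exact ⟨1, K.one_mem, by simp⟩
    · refine tr (t2 _ _ _ _ (Or.inr (neg_ne_zero.2 hc))) ?_
      exact t3 1
  rw [vc_eta v] at hv ⊢
  generalize v (Sum.inl 0) = a at *
  generalize v (Sum.inl 1) = b at *
  generalize v (Sum.inr 0) = c at *
  generalize v (Sum.inr 1) = d at *
  by_cases h : b ≠ 0 ∨ d ≠ 0
  · exact tr (t2 a b c d h) (t4 a c)
  · push Not at h
    obtain ⟨rfl, rfl⟩ := h
    have h' : -a ≠ 0 ∨ -c ≠ 0 := by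
      by_contra hcon
      push Not at hcon
      obtain ⟨h1, h2⟩ := hcon
      apply hv
      rw [neg_eq_zero.1 h1, neg_eq_zero.1 h2]
      ext (i | i) <;> fin_cases i <;> rfl
    refine tr ⟨N1 F, hN, N1_vc _ _ _ _⟩ ?_
    exact tr (t2 _ _ _ _ h') (t4 _ _)

theorem X2_spT (a : F) : X2 a = Cfsg.Agent.H22.spT (vc 1 0 0 0) a := by
  apply Cfsg.Agent.H22.sp_ext'
  intro v
  rw [Cfsg.Agent.H22.coe_spT, Cfsg.Agent.H22.sympTransvection_mulVec, Cfsg.Agent.H22.spB_apply, Cfsg.Agent.H22.sympForm_eq_sum,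
    Fin.sum_univ_two]
  change (X2 a).1 *ᵥ v = _
  rw [X2_val]
  rw [vc_eta v]
  ext (i | i) <;> fin_cases i <;>
    simp [vc, Matrix.mulVec, dotProduct, Fintype.sum_sum_type, Fin.sum_univ_two, fromBlocks]

theorem gen_top [Fintype F] (ζ : F) (hζ0 : ζ ≠ 0) (N : ℕ) (hN : ζ ^ N = -1) (hζ : ∀ a : F, a ≠ 0 → ∃ n : ℕ, a = ζ ^ n) :
    Subgroup.closure ({X1 1, H1 ζ hζ0, N1 F, X4 1, H4 ζ hζ0, N4 F} : Set (Sp4 F)) = ⊤ := by
  have D := datM ζ hζ0 N hN hζ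
  set K := Subgroup.closure ({X1 1, H1 ζ hζ0, N1 F, X4 1, H4 ζ hζ0, N4 F} : Set (Sp4 F)) with hK
  have m1 : X1 (1 : F) ∈ K := Subgroup.subset_closure (by simp)
  have m3 : N1 F ∈ K := Subgroup.subset_closure (by simp)
  have m4 : X4 (1 : F) ∈ K := Subgroup.subset_closure (by simp)
  have m5 : H4 ζ hζ0 ∈ K := Subgroup.subset_closure (by simp)
  have m6 : N4 F ∈ K := Subgroup.subset_closure (by simp)
  have hX : ∀ a : F, X1 a ∈ K := by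
    intro a
    refine D.ind (P := fun a => X1 a ∈ K) ?_ m1 ?_ a
    · rw [zero_of_add X1_add]; exact K.one_mem
    · intro a ha
      rw [← D.a4]
      exact K.mul_mem (K.mul_mem (K.inv_mem m5) ha) m5
  have hio : ∀ g, ioH g ∈ K := by
    intro g
    have h1 : (⊤ : Subgroup (CfsgLib.Sltwo.SL F)) ≤ K.comap ioH := by
      rw [← CfsgLib.Sltwo.gen_top ζ hζ0 hζ, Subgroup.closure_le]
      rintro y (rfl | rfl | rfl)
      · exact m4
      · exact m5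
      · exact m6
    exact h1 (Subgroup.mem_top g)
  have hX2 : ∀ a : F, X2 a ∈ K := by
    intro a
    rw [← y2]
    exact K.mul_mem (K.mul_mem m3 (hio _)) (K.inv_mem m3)
  rw [eq_top_iff, ← Cfsg.Agent.H22.spTransGrp_eq_top]
  unfold Cfsg.Agent.H22.spTransGrp
  rw [Subgroup.closure_le]
  rintro A ⟨w, c, hA⟩
  have hA' : A = Cfsg.Agent.H22.spT w c := Subtype.ext hA
  rw [hA']
  by_cases hw : w = 0
  · subst hw
    have : Cfsg.Agent.H22.spT (0 : Fin 2 ⊕ Fin 2 → F) c = 1 := by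
      apply Cfsg.Agent.H22.sp_ext'
      intro x
      rw [Cfsg.Agent.H22.coe_spT, Cfsg.Agent.H22.sympTransvection_mulVec]; simp
    rw [this]; exact K.one_mem
  · obtain ⟨k, hk, hkw⟩ := move K hX m3 hio w hw
    have h1 := Cfsg.Agent.H22.spT_conj k w c
    rw [hkw, ← X2_spT] at h1
    have h2 : Cfsg.Agent.H22.spT w c = k⁻¹ * X2 c * k := by rw [← h1]; group
    rw [h2]
    exact K.mul_mem (K.mul_mem (K.inv_mem hk) (hX2 c)) hk

end mat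

end CfsgLib.Spfour
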