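import Cfsg.Agent.LibSpfour5
import Cfsg.Agent.LibSltwo5

/-!
Short presentations of `Sp₄(q)` and `PSp₄(q)`.
-/

set_option autoImplicit false
set_option linter.all false

namespace CfsgLib.Spfour

open Polynomial
open CfsgLib.Slthree (Bg Bs base_g base_s exx_g exx_s comm_of_rel rel_of_comm)
open CfsgLib.Slthree.Dat3 (zero_of_add neg_of_add)

abbrev FG6 := FreeGroup (Fin 6)
abbrev FG3 := FreeGroup (Fin 3)

/-- the generators of `Sp₄` -/
def gens6 {F : Type*} [Field F] (ζ : F) (hζ : ζ ≠ 0) : Fin 6 → Sp4 F :=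
  ![X1 1, H1 ζ hζ, N1 F, X4 1, H4 ζ hζ, N4 F]

theorem assemble {F : Type*} [Field F] [Fintype F] {Q : Type*} [Group Q] [Finite Q] (ψ : Sp4 F →* Q) (hψ : Function.Surjective ψ)
    {ζ : F} (hζ0 : ζ ≠ 0) (N : ℕ) (hN : ζ ^ N = -1) (hζ : ∀ a : F, a ≠ 0 → ∃ n : ℕ, a = ζ ^ n) (L : List FG6)
    (hB : ∀ r ∈ L, ψ (FreeGroup.lift (gens6 ζ hζ0) r) = 1) (M1 M4 : ℕ) (hM1 : 0 < M1) (hM4 : 0 < M4)
    (hA : ∀ (G : Type) [Group G] (ρ : FG6 →* G), (∀ r ∈ L, ρ r = 1) →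
      ∃ x1 x4 : F → G, Dat4 x1 x4 (ρ (FreeGroup.of 1)) (ρ (FreeGroup.of 4)) (ρ (FreeGroup.of 2)) (ρ (FreeGroup.of 5)) ζ N ∧
        x1 1 = ρ (FreeGroup.of 0) ∧ x4 1 = ρ (FreeGroup.of 3) ∧ ρ (FreeGroup.of 1) ^ M1 = 1 ∧ ρ (FreeGroup.of 4) ^ M4 = 1)
    (hcard : (1 + 2 * Fintype.card F + 2 * Fintype.card F ^ 2 + 2 * Fintype.card F ^ 3 + Fintype.card F ^ 4) *
      (Fintype.card F ^ 4 * (M1 * M4)) ≤ Nat.card Q) :
    ∃ rels : Finset FG6, rels.card ≤ L.length ∧ Nonempty (PresentedGroup (↑rels : Set FG6) ≃* Q) := by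
  classical
  refine ⟨L.toFinset, L.toFinset_card_le, ?_⟩
  set rels : Set FG6 := ↑L.toFinset with hrels
  let ρ : FG6 →* PresentedGroup rels := PresentedGroup.mk rels
  have hρ : ∀ r ∈ L, ρ r = 1 := by
    intro r hr
    apply (QuotientGroup.eq_one_iff r).2
    apply Subgroup.subset_normalClosure
    simpa [hrels] using hr
  obtain ⟨x1, x4, D, hx1, hx4, hh1, hh4⟩ := hA (PresentedGroup rels) ρ hρ
  have hgen : Subgroup.closure ({x1 1, ρ (FreeGroup.of 1), ρ (FreeGroup.of 2), x4 1, ρ (FreeGroup.of 4), ρ (FreeGroup.of 5)} :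
      Set (PresentedGroup rels)) = ⊤ := by
    rw [eq_top_iff, ← PresentedGroup.closure_range_of rels, Subgroup.closure_le]
    rintro _ ⟨i, rfl⟩
    fin_cases i
    · exact Subgroup.subset_closure (by rw [hx1]; exact Or.inl rfl)
    · exact Subgroup.subset_closure (Or.inr (Or.inl rfl))
    · exact Subgroup.subset_closure (Or.inr (Or.inr (Or.inl rfl)))
    · exact Subgroup.subset_closure (by rw [hx4]; exact (Or.inr (Or.inr (Or.inr (Or.inl rfl)))))
    · exact Subgroup.subset_closure (Or.inr (Or.inr (Or.inr (Or.inr (Or.inl rfl)))))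
    · exact Subgroup.subset_closure (Or.inr (Or.inr (Or.inr (Or.inr (Or.inr rfl)))))
  obtain ⟨hfin, hle⟩ := D.bn2.bound hgen hM1 hM4 hh1 hh4
  haveI := hfin
  -- the map
  have hrel : ∀ r ∈ rels, FreeGroup.lift (fun i => ψ (gens6 ζ hζ0 i)) r = 1 := by
    intro r hr
    have hr' : r ∈ L := by simpa [hrels] using hr
    have h1 : FreeGroup.lift (fun i => ψ (gens6 ζ hζ0 i)) = ψ.comp (FreeGroup.lift (gens6 ζ hζ0)) := by
      apply FreeGroup.ext_hom
      intro i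
      simp
    rw [h1]
    exact hB r hr'
  let Φ : PresentedGroup rels →* Q := PresentedGroup.toGroup hrel
  have hsurj : Function.Surjective Φ := by
    rw [← MonoidHom.range_eq_top]
    have h2 : (⊤ : Subgroup (Sp4 F)).map ψ ≤ Φ.range := by
      rw [← gen_top ζ hζ0 N hN hζ, MonoidHom.map_closure, Subgroup.closure_le]
      rintro _ ⟨y, hy, rfl⟩
      rcases hy with rfl | rfl | rfl | rfl | rfl | rfl
      · exact ⟨PresentedGroup.of 0, PresentedGroup.toGroup.of hrel⟩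
      · exact ⟨PresentedGroup.of 1, PresentedGroup.toGroup.of hrel⟩
      · exact ⟨PresentedGroup.of 2, PresentedGroup.toGroup.of hrel⟩
      · exact ⟨PresentedGroup.of 3, PresentedGroup.toGroup.of hrel⟩
      · exact ⟨PresentedGroup.of 4, PresentedGroup.toGroup.of hrel⟩
      · exact ⟨PresentedGroup.of 5, PresentedGroup.toGroup.of hrel⟩
    rw [eq_top_iff]
    intro q _
    obtain ⟨y, rfl⟩ := hψ q
    exact h2 ⟨y, trivial, rfl⟩
  have hbij : Function.Bijective Φ := by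
    refine (Nat.bijective_iff_surjective_and_card _).2 ⟨hsurj, ?_⟩
    exact le_antisymm (hle.trans hcard) (Nat.card_le_card_of_surjective Φ hsurj)
  exact ⟨MulEquiv.ofBijective Φ hbij⟩

/-! ### relations -/

section rels

variable {G : Type*} [Group G]

def com (a b : G) : G := a * b * a⁻¹ * b⁻¹

def Ex (M1 : ℕ) (u1 h1 n1 u4 h4 n4 : G) : List G :=
  [com h1 h4, com u1 (h1 * (h4 * h4)), n1 * h4 * n1⁻¹ * (h4 * h1)⁻¹, n1 * h1 * n1⁻¹ * h1,
    u1 * n1 * u1 * n1⁻¹ * u1 * n1⁻¹, n4 * h1 * n4⁻¹ * (h1 * (h4 * h4))⁻¹, com u4 (h4 * h1),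
    n1 * n4 * n1 * n4 * (n4 * n1 * n4 * n1)⁻¹,
    n1 * (n4 * u1⁻¹ * n4⁻¹) * n1⁻¹ * (n4 * u1⁻¹ * n4⁻¹), com n4 (n1 * u4 * n1⁻¹), com u4 (n4 * u1⁻¹ * n4⁻¹),
    com u4 (n1 * u4 * n1⁻¹), com u1 (n1 * u4 * n1⁻¹),
    u1 * u4 * (u4 * ((n4 * u1⁻¹ * n4⁻¹) * (n1 * u4 * n1⁻¹)) * u1)⁻¹,
    u1 * (n4 * u1⁻¹ * n4⁻¹) * ((n4 * u1⁻¹ * n4⁻¹) * ((n1 * u4 * n1⁻¹) * (n1 * u4 * n1⁻¹)) * u1)⁻¹,
    h1 ^ M1]

theorem Ex_map {H : Type*} [Group H] (φ : G →* H) (M1 : ℕ) (u1 h1 n1 u4 h4 n4 : G) :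
    (Ex M1 u1 h1 n1 u4 h4 n4).map φ = Ex M1 (φ u1) (φ h1) (φ n1) (φ u4) (φ h4) (φ n4) := by
  simp [Ex, com]

variable {F : Type*} [Field F]

theorem mk_dat4 {x1 x4 : F → G} {u1 h1 n1 u4 h4 n4 : G} {ζ : F} {N : ℕ} {M1 : ℕ} (hN : ζ ^ N = -1)
    (hζ : ∀ a : F, a ≠ 0 → ∃ n : ℕ, a = ζ ^ n) (D4 : CfsgLib.Sltwo.Dat x4 h4 n4 ζ) (add1 : ∀ a b, x1 (a + b) = x1 a * x1 b)
    (a4 : ∀ a, h4⁻¹ * x1 a * h4⁻¹⁻¹ = x1 (ζ * a)) (hx1 : x1 1 = u1) (hx4 : x4 1 = u4)
    (hR : ∀ r ∈ Ex M1 u1 h1 n1 u4 h4 n4, r = 1) : Dat4 x1 x4 h1 h4 n1 n4 ζ N ∧ h1 ^ M1 = 1 := by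
  simp only [Ex, com, List.forall_mem_cons, List.not_mem_nil, false_implies, implies_true, and_true] at hR
  obtain ⟨e1, e2, e3, e4, e5, e6, e7, e8, e9, e10, e11, e12, e13, e14, e15, e16⟩ := hR
  refine ⟨?_, e16⟩
  subst hx1 hx4
  exact
    { hζN := hN
      hζ := hζ
      D4 := D4
      add1 := add1
      a4 := fun a => by have := a4 a; rwa [inv_inv] at this
      e1 := comm_of_rel e1
      e2 := comm_of_rel e2
      e3 := mul_inv_eq_one.1 e3
      e4 := eq_inv_of_mul_eq_one_left e4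
      e5 := mul_inv_eq_one.1 e5
      e6 := mul_inv_eq_one.1 e6
      e7 := comm_of_rel e7
      e8 := mul_inv_eq_one.1 e8
      e9 := eq_inv_of_mul_eq_one_left e9
      e10 := comm_of_rel e10
      e11 := comm_of_rel e11
      e12 := comm_of_rel e12
      e13 := comm_of_rel e13
      e14 := mul_inv_eq_one.1 e14
      e15 := mul_inv_eq_one.1 e15 }

theorem dat4_rels {Q : Type*} [Group Q] (ψ : G →* Q) {x1 x4 : F → G} {h1 n1 h4 n4 : G} {ζ : F} {N : ℕ} {M1 : ℕ}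
    (D : Dat4 x1 x4 h1 h4 n1 n4 ζ N) (hM : ψ (h1 ^ M1) = 1) : ∀ r ∈ Ex M1 (x1 1) h1 n1 (x4 1) h4 n4, ψ r = 1 := by
  have key : ∀ r : G, r = 1 → ψ r = 1 := fun r hr => by rw [hr, map_one]
  simp only [Ex, List.forall_mem_cons, List.not_mem_nil, false_implies, implies_true, and_true]
  refine ⟨?_, ?_, ?_, ?_, ?_, ?_, ?_, ?_, ?_, ?_, ?_, ?_, ?_, ?_, ?_, hM⟩
  · exact key _ (rel_of_comm D.e1)
  · exact key _ (rel_of_comm D.e2)
  · exact key _ (mul_inv_eq_one.2 D.e3)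
  · exact key _ (by rw [D.e4, inv_mul_cancel])
  · exact key _ (mul_inv_eq_one.2 D.e5)
  · exact key _ (mul_inv_eq_one.2 D.e6)
  · exact key _ (rel_of_comm D.e7)
  · exact key _ (mul_inv_eq_one.2 D.e8)
  · exact key _ (by rw [D.e9, inv_mul_cancel])
  · exact key _ (rel_of_comm D.e10)
  · exact key _ (rel_of_comm D.e11)
  · exact key _ (rel_of_comm D.e12)
  · exact key _ (rel_of_comm D.e13)
  · exact key _ (mul_inv_eq_one.2 D.e14)
  · exact key _ (mul_inv_eq_one.2 D.e15)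

theorem Bg_map {H : Type*} [Group H] (φ : G →* H) {p : ℕ} (k : ℕ) (m : (ZMod p)[X]) (u d : G) :
    (Bg k m u d).map φ = Bg k m (φ u) (φ d) := by
  simp [Bg, CfsgLib.Sltwo.W_map, CfsgLib.Sltwo.cj_map]

theorem Bs_map {H : Type*} [Group H] (φ : G →* H) {p : ℕ} (m : (ZMod p)[X]) (u d : G) :
    (Bs m u d).map φ = Bs m (φ u) (φ d) := by
  simp [Bs, CfsgLib.Sltwo.W_map, CfsgLib.Sltwo.cj_map]

end rels

section fin

variable {F : Type*} [Field F] [Fintype F]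

theorem pack (F : Type*) [Field F] [Fintype F] : ∃ (ζ : F) (hζ0 : ζ ≠ 0), (∀ a : F, a ≠ 0 → ∃ n : ℕ, a = ζ ^ n) ∧
    ζ ^ (Fintype.card F - 1) = 1 ∧ (Odd (Fintype.card F) → ζ ^ ((Fintype.card F - 1) / 2) = -1) ∧
    ∃ L : List FG3, L.length ≤ 8 ∧ (∀ r ∈ L, FreeGroup.lift (CfsgLib.Sltwo.gens ζ hζ0) r = 1) ∧
      ∀ (G : Type) [Group G] (ρ : FG3 →* G), (∀ r ∈ L, ρ r = 1) →
        ∃ x : F → G, CfsgLib.Sltwo.Dat x (ρ (FreeGroup.of 1)) (ρ (FreeGroup.of 2)) ζ ∧ x 1 = ρ (FreeGroup.of 0) ∧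
          ρ (FreeGroup.of 1) ^ (Fintype.card F - 1) = 1 := by
  have hc1 : 1 < Fintype.card F := Fintype.one_lt_card
  rcases Nat.even_or_odd (Fintype.card F) with he | ho
  · obtain ⟨p, hp⟩ := CharP.exists F
    haveI := hp
    obtain ⟨n, hpp, hn⟩ := FiniteField.card F p
    have hp2 : p = 2 := by
      rw [hn] at he
      have h1 : 2 ∣ p ^ (n : ℕ) := he.two_dvd
      exact ((Nat.prime_dvd_prime_iff_eq Nat.prime_two hpp).1 (Nat.prime_two.dvd_of_dvd_pow h1)).symm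
    subst hp2
    obtain ⟨ζ, hζ0, hζ, L, hL, hB, hA⟩ := CfsgLib.Sltwo.package_even (F := F)
    refine ⟨ζ, hζ0, hζ, FiniteField.pow_card_sub_one_eq_one ζ hζ0, ?_, L, by omega, hB, ?_⟩
    · intro ho
      exact absurd he (Nat.not_even_iff_odd.2 ho)
    · intro G _ ρ hρ
      obtain ⟨x, D, hx, _, h2⟩ := hA G ρ hρ
      exact ⟨x, D, hx, h2⟩
  · obtain ⟨ζ, hζ0, hζ, hord, L, hL, hB, hA⟩ := CfsgLib.Sltwo.package ho
    have hN := CfsgLib.Sltwo.neg_one_pow hζ0 hord ho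
    refine ⟨ζ, hζ0, hζ, FiniteField.pow_card_sub_one_eq_one ζ hζ0, fun _ => hN, L, hL, hB, ?_⟩
    intro G _ ρ hρ
    obtain ⟨x, D, hx⟩ := hA G ρ hρ
    refine ⟨x, D, hx, ?_⟩
    obtain ⟨m, hm⟩ := ho
    have h2 := (D.tt hN).2
    have e : 2 * ((Fintype.card F - 1) / 2) = Fintype.card F - 1 := by omega
    rwa [e] at h2

/-- embedding of free groups -/
def ka : FG3 →* FG6 := FreeGroup.lift ![FreeGroup.of 3, FreeGroup.of 4, FreeGroup.of 5]

theorem pack6 {Q : Type*} [Group Q] [Finite Q] (ψ : Sp4 F →* Q) (hψ : Function.Surjective ψ)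
    {ζ : F} (hζ0 : ζ ≠ 0) (hζ : ∀ a : F, a ≠ 0 → ∃ n : ℕ, a = ζ ^ n) (L : List FG3) (hL : L.length ≤ 8)
    (hB : ∀ r ∈ L, FreeGroup.lift (CfsgLib.Sltwo.gens ζ hζ0) r = 1)
    (hA : ∀ (G : Type) [Group G] (ρ : FG3 →* G), (∀ r ∈ L, ρ r = 1) →
        ∃ x : F → G, CfsgLib.Sltwo.Dat x (ρ (FreeGroup.of 1)) (ρ (FreeGroup.of 2)) ζ ∧ x 1 = ρ (FreeGroup.of 0) ∧
          ρ (FreeGroup.of 1) ^ (Fintype.card F - 1) = 1)
    (M1 : ℕ) (hM1 : 0 < M1) (hψM : ψ (H1 ζ hζ0 ^ M1) = 1)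
    (hcard : (1 + 2 * Fintype.card F + 2 * Fintype.card F ^ 2 + 2 * Fintype.card F ^ 3 + Fintype.card F ^ 4) *
      (Fintype.card F ^ 4 * (M1 * (Fintype.card F - 1))) ≤ Nat.card Q) :
    ∃ rels : Finset FG6, rels.card ≤ 35 ∧ Nonempty (PresentedGroup (↑rels : Set FG6) ≃* Q) := by
  have hc1 : 1 < Fintype.card F := Fintype.one_lt_card
  obtain ⟨N, hN'⟩ := hζ (-1) (neg_ne_zero.2 one_ne_zero)
  have hN : ζ ^ N = -1 := hN'.symm
  obtain ⟨p, hp⟩ := CharP.exists F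
  haveI := hp
  obtain ⟨n, hpp, hn⟩ := FiniteField.card F p
  haveI : Fact p.Prime := ⟨hpp⟩
  letI : Algebra (ZMod p) F := ZMod.algebra F p
  have hs : Function.Surjective (aeval ζ : (ZMod p)[X] →ₐ[ZMod p] F) := by
    intro y
    by_cases hy : y = 0
    · exact ⟨0, by rw [hy]; simp⟩
    · obtain ⟨n, hn⟩ := hζ y hy
      exact ⟨X ^ n, by rw [map_pow, aeval_X, hn]⟩
  have DM := datM ζ hζ0 N hN hζ
  -- the embedded relations
  have hcomp : (FreeGroup.lift (gens6 ζ hζ0)).comp ka = ioH.comp (FreeGroup.lift (CfsgLib.Sltwo.gens ζ hζ0)) := by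
    apply FreeGroup.ext_hom
    intro i
    fin_cases i
    · change FreeGroup.lift (gens6 ζ hζ0) (ka (FreeGroup.of 0)) = ioH (FreeGroup.lift (CfsgLib.Sltwo.gens ζ hζ0) (FreeGroup.of 0))
      have e : ka (FreeGroup.of 0) = FreeGroup.of 3 := FreeGroup.lift_apply_of
      rw [e, FreeGroup.lift_apply_of, FreeGroup.lift_apply_of]; rfl
    · change FreeGroup.lift (gens6 ζ hζ0) (ka (FreeGroup.of 1)) = ioH (FreeGroup.lift (CfsgLib.Sltwo.gens ζ hζ0) (FreeGroup.of 1))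
      have e : ka (FreeGroup.of 1) = FreeGroup.of 4 := FreeGroup.lift_apply_of
      rw [e, FreeGroup.lift_apply_of, FreeGroup.lift_apply_of]; rfl
    · change FreeGroup.lift (gens6 ζ hζ0) (ka (FreeGroup.of 2)) = ioH (FreeGroup.lift (CfsgLib.Sltwo.gens ζ hζ0) (FreeGroup.of 2))
      have e : ka (FreeGroup.of 2) = FreeGroup.of 5 := FreeGroup.lift_apply_of
      rw [e, FreeGroup.lift_apply_of, FreeGroup.lift_apply_of]; rfl
  have hka0 : ka (FreeGroup.of 0) = FreeGroup.of 3 := FreeGroup.lift_apply_of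
  have hka1 : ka (FreeGroup.of 1) = FreeGroup.of 4 := FreeGroup.lift_apply_of
  have hka2 : ka (FreeGroup.of 2) = FreeGroup.of 5 := FreeGroup.lift_apply_of
  let E : List FG6 := Ex M1 (FreeGroup.of 0) (FreeGroup.of 1) (FreeGroup.of 2) (FreeGroup.of 3) (FreeGroup.of 4) (FreeGroup.of 5)
  have hBL : ∀ r ∈ L.map ka ++ E, ψ (FreeGroup.lift (gens6 ζ hζ0) r) = 1 := by
    intro r hr
    rcases List.mem_append.1 hr with hr | hr
    · obtain ⟨s, hs, rfl⟩ := List.mem_map.1 hr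
      have h1 : FreeGroup.lift (gens6 ζ hζ0) (ka s) = ioH (FreeGroup.lift (CfsgLib.Sltwo.gens ζ hζ0) s) := DFunLike.congr_fun hcomp s
      rw [h1, hB s hs, map_one, map_one]
    · have h1 := List.mem_map_of_mem (f := FreeGroup.lift (gens6 ζ hζ0)) hr
      rw [Ex_map] at h1
      simp only [FreeGroup.lift_apply_of] at h1
      exact dat4_rels ψ DM hψM _ h1
  have hAL : ∀ (G : Type) [Group G] (ρ : FG6 →* G), (∀ r ∈ L.map ka ++ E, ρ r = 1) → ∀ x1 : F → G,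
      (∀ a b, x1 (a + b) = x1 a * x1 b) → (∀ a, (ρ (FreeGroup.of 4))⁻¹ * x1 a * (ρ (FreeGroup.of 4))⁻¹⁻¹ = x1 (ζ * a)) →
      x1 1 = ρ (FreeGroup.of 0) →
      ∃ x4 : F → G, Dat4 x1 x4 (ρ (FreeGroup.of 1)) (ρ (FreeGroup.of 4)) (ρ (FreeGroup.of 2)) (ρ (FreeGroup.of 5)) ζ N ∧
        x4 1 = ρ (FreeGroup.of 3) ∧ ρ (FreeGroup.of 1) ^ M1 = 1 ∧ ρ (FreeGroup.of 4) ^ (Fintype.card F - 1) = 1 := by
    intro G _ ρ hρ x1 add1 a4 hx1
    obtain ⟨x4, D4, hx4, hh4⟩ := hA G (ρ.comp ka) (fun r hr => hρ (ka r) (List.mem_append_left _ (List.mem_map_of_mem hr)))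
    simp only [MonoidHom.comp_apply, hka0, hka1, hka2] at D4 hx4 hh4
    have hR : ∀ r ∈ Ex M1 (ρ (FreeGroup.of 0)) (ρ (FreeGroup.of 1)) (ρ (FreeGroup.of 2)) (ρ (FreeGroup.of 3))
        (ρ (FreeGroup.of 4)) (ρ (FreeGroup.of 5)), r = 1 := by
      intro r hr
      rw [← Ex_map] at hr
      obtain ⟨r', hr', rfl⟩ := List.mem_map.1 hr
      exact hρ r' (List.mem_append_right _ hr')
    obtain ⟨D, hM⟩ := mk_dat4 (M1 := M1) hN hζ D4 add1 a4 hx1 hx4 hR
    exact ⟨x4, D, hx4, hM, hh4⟩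
  have hd' : ∀ a : F, (H4 ζ hζ0)⁻¹ * X1 a * (H4 ζ hζ0)⁻¹⁻¹ = X1 (ζ * a) := by
    intro a; rw [inv_inv]; exact r_a4 ζ hζ0 a
  by_cases hne : (1 : F) + ζ = 0
  · -- small fields
    have hζe : ζ = -1 := by linear_combination hne
    have hc3 : Fintype.card F ≤ 3 := by
      have hsj : Function.Surjective (![0, 1, -1] : Fin 3 → F) := by
        intro y
        by_cases hy : y = 0
        · exact ⟨0, hy.symm⟩
        · obtain ⟨n, hn⟩ := hζ y hy
          rw [hζe] at hn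
          rcases neg_one_pow_eq_or F n with h | h
          · exact ⟨1, by rw [hn, h]; rfl⟩
          · exact ⟨2, by rw [hn, h]; rfl⟩
      have := Fintype.card_le_of_surjective _ hsj
      simpa using this
    have hfd : Module.finrank (ZMod p) F ≤ 2 := by
      have h1 : Nat.card F = Nat.card (ZMod p) ^ Module.finrank (ZMod p) F := Module.natCard_eq_pow_finrank
      rw [Nat.card_eq_fintype_card, Nat.card_eq_fintype_card, ZMod.card] at h1
      have h3 := hpp.two_le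
      by_contra hcon
      have h4 : 2 ^ 3 ≤ p ^ Module.finrank (ZMod p) F :=
        (Nat.pow_le_pow_left h3 3).trans (Nat.pow_le_pow_right (by omega) (by omega))
      omega
    obtain ⟨rels, hr1, hr2⟩ := assemble ψ hψ hζ0 N hN hζ
      (Bs (minpoly (ZMod p) ζ) (FreeGroup.of 0) (FreeGroup.of 4)⁻¹ ++ (L.map ka ++ E)) (by
        intro r hr
        rcases List.mem_append.1 hr with hr | hr
        · have h1 := List.mem_map_of_mem (f := FreeGroup.lift (gens6 ζ hζ0)) hr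
          rw [Bs_map] at h1
          simp only [map_inv, FreeGroup.lift_apply_of] at h1
          have := base_s (x := X1) (d := (H4 ζ hζ0)⁻¹) X1_add hd' _ h1
          rw [this, map_one]
        · exact hBL r hr) M1 (Fintype.card F - 1) hM1 (by omega) (by
        intro G _ ρ hρ
        have hR : ∀ r ∈ Bs (minpoly (ZMod p) ζ) (ρ (FreeGroup.of 0)) (ρ (FreeGroup.of 4))⁻¹, r = 1 := by
          intro r hr
          rw [← map_inv, ← Bs_map] at hr
          obtain ⟨r', hr', rfl⟩ := List.mem_map.1 hr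
          exact hρ r' (List.mem_append_left _ hr')
        obtain ⟨x1, add1, hd1, hx1⟩ := exx_s hs hfd hR
        obtain ⟨x4, D, hx4, hM, hh4⟩ := hAL G ρ (fun r hr => hρ r (List.mem_append_right _ hr)) x1 add1 hd1 hx1
        exact ⟨x1, x4, D, hx1, hx4, hM, hh4⟩) hcard
    refine ⟨rels, hr1.trans ?_, hr2⟩
    simp only [List.length_append, List.length_map, E, Bs, Ex, List.length_cons, List.length_nil]
    omega
  · obtain ⟨k, hk'⟩ := hζ _ hne
    have hk : ζ ^ k = 1 + ζ := hk'.symm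
    obtain ⟨rels, hr1, hr2⟩ := assemble ψ hψ hζ0 N hN hζ
      (Bg k (minpoly (ZMod p) ζ) (FreeGroup.of 0) (FreeGroup.of 4)⁻¹ ++ (L.map ka ++ E)) (by
        intro r hr
        rcases List.mem_append.1 hr with hr | hr
        · have h1 := List.mem_map_of_mem (f := FreeGroup.lift (gens6 ζ hζ0)) hr
          rw [Bg_map] at h1
          simp only [map_inv, FreeGroup.lift_apply_of] at h1
          have := base_g (x := X1) (d := (H4 ζ hζ0)⁻¹) X1_add hd' k hk _ h1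
          rw [this, map_one]
        · exact hBL r hr) M1 (Fintype.card F - 1) hM1 (by omega) (by
        intro G _ ρ hρ
        have hR : ∀ r ∈ Bg k (minpoly (ZMod p) ζ) (ρ (FreeGroup.of 0)) (ρ (FreeGroup.of 4))⁻¹, r = 1 := by
          intro r hr
          rw [← map_inv, ← Bg_map] at hr
          obtain ⟨r', hr', rfl⟩ := List.mem_map.1 hr
          exact hρ r' (List.mem_append_left _ hr')
        obtain ⟨x1, add1, hd1, hx1⟩ := exx_g hs k hR
        obtain ⟨x4, D, hx4, hM, hh4⟩ := hAL G ρ (fun r hr => hρ r (List.mem_append_right _ hr)) x1 add1 hd1 hx1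
        exact ⟨x1, x4, D, hx1, hx4, hM, hh4⟩) hcard
    refine ⟨rels, hr1.trans ?_, hr2⟩
    simp only [List.length_append, List.length_map, E, Bg, Ex, List.length_cons, List.length_nil]
    omega

theorem H1_mul (a b : F) (ha : a ≠ 0) (hb : b ≠ 0) : H1 a ha * H1 b hb = H1 (a * b) (mul_ne_zero ha hb) := by
  apply s4_ext
  rw [v_mul, H1_val, H1_val, H1_val, Matrix.fromBlocks_multiply]
  congr 1 <;> (ext i j; fin_cases i <;> fin_cases j <;> simp [Matrix.mul_apply, Matrix.vecMul, dotProduct, Fin.sum_univ_two, mul_comm])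

theorem H1_one : H1 (1 : F) one_ne_zero = 1 := by
  have h := H1_mul (1 : F) 1 one_ne_zero one_ne_zero
  have e : H1 ((1 : F) * 1) (mul_ne_zero one_ne_zero one_ne_zero) = H1 1 one_ne_zero := by
    congr 1
    ring
  rw [e] at h
  exact mul_eq_left.1 h

theorem H1_pow (a : F) (ha : a ≠ 0) (n : ℕ) : H1 a ha ^ n = H1 (a ^ n) (pow_ne_zero n ha) := by
  induction n with
  | zero =>
    rw [pow_zero, ← H1_one]
    congr 1
    exact (pow_zero a).symm
  | succ n ih =>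
    rw [pow_succ, ih, H1_mul]
    congr 1
    exact (pow_succ a n).symm

theorem H1_neg : (H1 (-1 : F) (neg_ne_zero.2 one_ne_zero)).1 = -1 := by
  rw [H1_val]
  ext (i | i) (j | j) <;> fin_cases i <;> fin_cases j <;> simp [Matrix.fromBlocks, Matrix.one_apply, inv_neg]

theorem main (F : Type*) [Field F] [Fintype F] :
    (∃ rels : Finset (FreeGroup (Fin 6)), rels.card ≤ 35 ∧ Nonempty (PresentedGroup (↑rels : Set (FreeGroup (Fin 6))) ≃* Matrix.symplecticGroup (Fin 2) F)) ∧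
    (∃ rels : Finset (FreeGroup (Fin 6)), rels.card ≤ 36 ∧ Nonempty (PresentedGroup (↑rels : Set (FreeGroup (Fin 6))) ≃* Cfsg.PSp 2 F)) := by
  obtain ⟨ζ, hζ0, hζ, hζ1, hodd, L, hL, hB, hA⟩ := pack F
  have hc1 : 1 < Fintype.card F := Fintype.one_lt_card
  haveI : Finite (Sp4 F) := inferInstance
  haveI : Finite (Cfsg.PSp 2 F) := inferInstance
  have hcs : Nat.card (Sp4 F) = Fintype.card F ^ 4 * ((Fintype.card F ^ 2 - 1) * (Fintype.card F ^ 4 - 1)) := by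
    rw [Cfsg.Agent.H22.card_sp, Finset.prod_range_succ, Finset.prod_range_succ, Finset.prod_range_zero, one_mul]
    norm_num
  obtain ⟨r, hr⟩ : ∃ r, Fintype.card F = r + 1 := ⟨Fintype.card F - 1, by omega⟩
  have g1 : (r + 1) ^ 2 - 1 = r * (r + 2) := Nat.sub_eq_of_eq_add (by ring)
  have g2 : (r + 1) ^ 4 - 1 = r * (r + 2) * ((r + 1) ^ 2 + 1) := Nat.sub_eq_of_eq_add (by ring)
  have g3 : r + 1 - 1 = r := by omega
  have hH1 : H1 ζ hζ0 ^ (Fintype.card F - 1) = 1 := by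
    rw [H1_pow, ← H1_one]
    congr 1
  constructor
  · obtain ⟨rels, h1, h2⟩ := pack6 (MonoidHom.id (Sp4 F)) Function.surjective_id hζ0 hζ L hL hB hA (Fintype.card F - 1) (by omega)
      (by rw [hH1]; rfl) (by
        rw [hcs, hr, g1, g2, g3]
        apply le_of_eq
        ring)
    exact ⟨rels, h1, h2⟩
  · have hq := Subgroup.card_eq_card_quotient_mul_card_subgroup (Subgroup.center (Sp4 F))
    rw [Cfsg.Agent.H22.card_center_sp (by norm_num), hcs] at hq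
    rcases Nat.even_or_odd (Fintype.card F) with he | ho
    · have h4 : Nat.gcd 2 (Fintype.card F - 1) = 1 := by
        obtain ⟨j, hj⟩ := he
        exact Nat.coprime_two_left.2 ⟨j - 1, by omega⟩
      rw [h4, mul_one] at hq
      obtain ⟨rels, h1, h2⟩ := pack6 (QuotientGroup.mk' (Subgroup.center (Sp4 F))) (QuotientGroup.mk'_surjective _) hζ0 hζ L hL hB hA
        (Fintype.card F - 1) (by omega) (by rw [hH1, map_one]) (by
          change _ ≤ Nat.card (Sp4 F ⧸ Subgroup.center (Sp4 F))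
          rw [← hq, hr, g1, g2, g3]
          apply le_of_eq
          ring)
      exact ⟨rels, by omega, h2⟩
    · have hm := hodd ho
      obtain ⟨m, hm'⟩ := ho
      have e1 : (Fintype.card F - 1) / 2 = m := by omega
      rw [e1] at hm
      have h4 : Nat.gcd 2 (Fintype.card F - 1) = 2 := by
        have : Fintype.card F - 1 = 2 * m := by omega
        rw [this]; exact Nat.gcd_mul_right_right 2 m ▸ (by simp)
      rw [h4] at hq
      have hr2 : r = 2 * m := by omega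
      obtain ⟨rels, h1, h2⟩ := pack6 (QuotientGroup.mk' (Subgroup.center (Sp4 F))) (QuotientGroup.mk'_surjective _) hζ0 hζ L hL hB hA
        m (by omega) (by
          apply (QuotientGroup.eq_one_iff _).2
          rw [Subgroup.mem_center_iff]
          intro g
          have e : (H1 ζ hζ0 ^ m).1 = -1 := by
            rw [H1_pow, ← H1_neg]
            congr 2
          apply Subtype.ext
          change g.1 * (H1 ζ hζ0 ^ m).1 = (H1 ζ hζ0 ^ m).1 * g.1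
          rw [e]; simp) (by
          change _ ≤ Nat.card (Sp4 F ⧸ Subgroup.center (Sp4 F))
          rw [hr, g1, g2] at hq
          rw [hr, g3]
          generalize Nat.card (Sp4 F ⧸ Subgroup.center (Sp4 F)) = c at hq ⊢
          have h5 : (1 + 2 * (r + 1) + 2 * (r + 1) ^ 2 + 2 * (r + 1) ^ 3 + (r + 1) ^ 4) * ((r + 1) ^ 4 * (m * r)) * 2 = c * 2 := by
            rw [← hq]
            have : (1 + 2 * (r + 1) + 2 * (r + 1) ^ 2 + 2 * (r + 1) ^ 3 + (r + 1) ^ 4) * ((r + 1) ^ 4 * (m * r)) * 2 =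
              (1 + 2 * (r + 1) + 2 * (r + 1) ^ 2 + 2 * (r + 1) ^ 3 + (r + 1) ^ 4) * ((r + 1) ^ 4 * ((2 * m) * r)) := by ring
            rw [this, ← hr2]
            ring
          omega)
      exact ⟨rels, by omega, h2⟩

end fin

end CfsgLib.Spfour
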