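import Cfsg.Agent.LibSpinor27

set_option autoImplicit false

/-! Membership in `Ω` for explicit elements. -/

namespace CfsgLib.Spinor27

open Cfsg.Agent.H22 Module

section mat
variable {F : Type*} [Field F] {ι : Type} [Fintype ι] [DecidableEq ι] {Q : QuadraticForm F (ι → F)}

theorem mem_omega_mat (g : ↥(Cfsg.isometryGroup F ⇑Q)) : g ∈ Cfsg.Omega F ⇑Q ↔ oIso Q g ∈ commutator (OGrp Q) := by
  have hmap : (commutator (Cfsg.isometryGroup F ⇑Q)).map (oIso Q : _ →* OGrp Q) = commutator (OGrp Q) := by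
    rw [commutator_def, commutator_def, Subgroup.map_commutator]
    congr 1 <;> exact Subgroup.map_top_of_surjective _ (oIso Q).surjective
  constructor
  · intro h
    rw [← hmap]
    exact ⟨g, h, rfl⟩
  · intro h
    rw [← hmap] at h
    obtain ⟨g', h1, h2⟩ := h
    have : g' = g := (oIso Q).injective h2
    rw [← this]
    exact h1

theorem exists_mat_iff (M : Matrix ι ι F) (g₀ : OGrp Q) (hM : ∀ x, M.mulVec x = g₀.1 x) :
    (∃ g : ↥(Cfsg.isometryGroup F ⇑Q), g ∈ Cfsg.Omega F ⇑Q ∧ ((g : Matrix.GeneralLinearGroup ι F) : Matrix ι ι F) = M) ↔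
      g₀ ∈ commutator (OGrp Q) := by
  constructor
  · rintro ⟨g, hg, hgM⟩
    rw [mem_omega_mat] at hg
    have : oIso Q g = g₀ := Subtype.ext ((oIso_eq_iff Q g g₀.1 M hM).2 hgM)
    rwa [← this]
  · intro h
    obtain ⟨g, hg⟩ := (oIso Q).surjective g₀
    refine ⟨g, ?_, (oIso_eq_iff Q g g₀.1 M hM).1 (by rw [hg])⟩
    rw [mem_omega_mat, hg]
    exact h

theorem list_refl_mulVec (l : List {v : ι → F // Q v ≠ 0}) (x : ι → F) :
    ((l.map fun v => Cfsg.reflectionMatrix ⇑Q v.1).prod).mulVec x = ((l.map fun v => oRefl Q v.1 v.2).prod).1 x := by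
  induction l with
  | nil => simp
  | cons a l ih =>
    rw [List.map_cons, List.prod_cons, List.map_cons, List.prod_cons, ← Matrix.mulVec_mulVec, ih, reflectionMatrix_mulVec,
      og_mul_apply, oRefl_apply]

theorem mulVec_eq_of_basis (M : Matrix ι ι F) (g : (ι → F) ≃ₗ[F] (ι → F)) (h : ∀ i, M.mulVec (Pi.single i 1) = g (Pi.single i 1)) (x : ι → F) :
    M.mulVec x = g x := by
  have : Matrix.toLin' M = (g : (ι → F) →ₗ[F] (ι → F)) := by
    apply (Pi.basisFun F ι).ext
    intro i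
    rw [Pi.basisFun_apply]
    exact h i
  exact LinearMap.congr_fun this x

theorem diagonal_mulVec_eq (d : ι → F) (g : (ι → F) ≃ₗ[F] (ι → F)) (h : ∀ i, g (Pi.single i 1) = d i • Pi.single i 1) (x : ι → F) :
    (Matrix.diagonal d).mulVec x = g x := by
  apply mulVec_eq_of_basis
  intro i
  rw [h i]
  ext j
  rw [Matrix.mulVec_diagonal, Pi.smul_apply, smul_eq_mul]
  by_cases hj : j = i
  · subst hj; rfl
  · simp [Pi.single_apply, hj]

end mat

section fam
variable {F V : Type*} [Field F] [Fintype F] [AddCommGroup V] [Module F V] [FiniteDimensional F V] {Q : QuadraticForm F V}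

theorem QFam_castLE {m i : ℕ} (him : i ≤ m) {s : Fin m → V × V} (hs : QFam Q m s) : QFam Q i (fun j => s (Fin.castLE him j)) := by
  refine ⟨fun j => hs.1 _, fun j k => ⟨(hs.2 _ _).1, (hs.2 _ _).2.1, ?_⟩⟩
  rw [(hs.2 _ _).2.2]
  by_cases h : j = k
  · subst h; simp
  · rw [if_neg h, if_neg]
    intro h'
    exact h (Fin.castLE_injective him h')

theorem fam_neg_mem (hodd : Odd (Fintype.card F)) (hQ : (QuadraticMap.polarBilin Q).Nondegenerate) (h : 2 ≤ finrank F V)
    {m : ℕ} (s : Fin m → V × V) (hs : QFam Q m s) :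
    ∃ g : OGrp Q, (∀ i, g.1 (s i).1 = -(s i).1 ∧ g.1 (s i).2 = -(s i).2) ∧ (∀ z, cperp Q s z → g.1 z = z) ∧
      (g ∈ commutator (OGrp Q) ↔ Fintype.card F ^ m % 4 = 1) := by
  have h2 : (2 : F) ≠ 0 := two_ne_zero_of_odd hodd
  obtain ⟨g, g1, g3, g4, g5, g6⟩ := fam_neg h2 hQ h s hs
  obtain ⟨_, _, _, _, _, _, _, _, _, _, hmem⟩ := omega_odd h2 hQ h
  refine ⟨g, g1, g3, ?_⟩
  rw [hmem 1 one_ne_zero, pow_mod_four_eq_one hodd, ← isSquare_neg_one_iff h2]
  constructor
  · rintro ⟨_, h3⟩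
    by_cases hs : IsSquare (-1 : F)
    · exact Or.inl hs
    · right
      rw [g6 hs] at h3
      by_contra hodd'
      rw [Nat.not_even_iff_odd] at hodd'
      rw [hodd'.neg_one_pow] at h3
      exact absurd h3 (by decide)
  · intro h3
    refine ⟨g4, ?_⟩
    by_cases hs : IsSquare (-1 : F)
    · exact g5 hs
    · rw [g6 hs]
      exact (h3.resolve_left hs).neg_one_pow

theorem sub_fam_neg {m i : ℕ} (him : i ≤ m) {s : Fin m → V × V} (hs : QFam Q m s)
    {g : OGrp Q} (h1 : ∀ j : Fin i, g.1 (s (Fin.castLE him j)).1 = -(s (Fin.castLE him j)).1 ∧ g.1 (s (Fin.castLE him j)).2 = -(s (Fin.castLE him j)).2)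
    (h3 : ∀ z, cperp Q (fun j => s (Fin.castLE him j)) z → g.1 z = z) (j : Fin m) :
    g.1 (s j).1 = (if (j : ℕ) < i then (-1 : F) else 1) • (s j).1 ∧ g.1 (s j).2 = (if (j : ℕ) < i then (-1 : F) else 1) • (s j).2 := by
  by_cases hj : (j : ℕ) < i
  · have := h1 ⟨j, hj⟩
    simpa [hj] using this
  · rw [if_neg hj, one_smul, one_smul]
    have hne : ∀ k : Fin i, Fin.castLE him k ≠ j := by
      rintro k rfl
      exact hj k.2
    constructor
    · apply h3
      intro k
      refine ⟨(hs.2 _ _).1, ?_⟩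
      rw [QuadraticMap.polar_comm, (hs.2 _ _).2.2, if_neg (hne k).symm]
    · apply h3
      intro k
      refine ⟨?_, (hs.2 _ _).2.1⟩
      rw [(hs.2 _ _).2.2, if_neg (hne k)]

end fam

end CfsgLib.Spinor27
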