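import Cfsg.Agent.LibH22Spin4

set_option autoImplicit false

/-! The spinor norm character over a finite field of odd order. -/

namespace CfsgLib.Spinor27

open Cfsg.Agent.H22 Module

section chi
variable {F : Type*} [Field F]

open Classical in
/-- quadratic character with values in the units of `ℤ` -/
noncomputable def chi (a : F) : ℤˣ := if IsSquare a then 1 else -1

theorem chi_eq_one {a : F} : chi a = 1 ↔ IsSquare a := by
  unfold chi
  split_ifs with h
  · exact ⟨fun _ => h, fun _ => rfl⟩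
  · exact ⟨fun h' => absurd h' (by decide), fun h' => absurd h' h⟩

theorem chi_eq_neg {a : F} : chi a = -1 ↔ ¬ IsSquare a := by
  unfold chi
  split_ifs with h
  · exact ⟨fun h' => absurd h' (by decide), fun h' => absurd h h'⟩
  · exact ⟨fun _ => h, fun _ => rfl⟩

theorem isSquare_mul_iff {a b : F} (ha : a ≠ 0) (h : IsSquare a) : IsSquare (a * b) ↔ IsSquare b := by
  constructor
  · intro h'
    have h1 := h'.div h
    rwa [mul_div_cancel_left₀ _ ha] at h1
  · exact fun h' => h.mul h'

variable [Fintype F]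

theorem chi_mul (h2 : (2 : F) ≠ 0) {a b : F} (ha : a ≠ 0) (hb : b ≠ 0) : chi (a * b) = chi a * chi b := by
  by_cases h : IsSquare a
  · rw [chi_eq_one.2 h, one_mul]
    by_cases h' : IsSquare b
    · rw [chi_eq_one.2 h', chi_eq_one.2 (h.mul h')]
    · rw [chi_eq_neg.2 h', chi_eq_neg, isSquare_mul_iff ha h]; exact h'
  · rw [chi_eq_neg.2 h]
    by_cases h' : IsSquare b
    · rw [chi_eq_one.2 h', mul_one, chi_eq_neg, mul_comm, isSquare_mul_iff hb h']; exact h
    · rw [chi_eq_neg.2 h', chi_eq_one.2]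
      · decide
      · have h3 := isSquare_div_of_not h2 a b ha hb h h'
        have h4 : a * b = a / b * (b * b) := by field_simp
        rw [h4]
        exact h3.mul ⟨b, rfl⟩

theorem chi_sq {a : F} : chi (a * a) = 1 := chi_eq_one.2 ⟨a, rfl⟩

theorem chi_one : chi (1 : F) = 1 := chi_eq_one.2 ⟨1, by ring⟩

theorem chi_prod (h2 : (2 : F) ≠ 0) (l : List F) (hl : ∀ a ∈ l, a ≠ 0) : chi l.prod = (l.map chi).prod := by
  induction l with
  | nil => simp [chi_one]
  | cons a l ih =>
    have h1 : ∀ b ∈ l, b ≠ 0 := fun b hb => hl b (by simp [hb])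
    have h3 : l.prod ≠ 0 := by
      rw [Ne, List.prod_eq_zero_iff]
      intro h0
      exact h1 0 h0 rfl
    rw [List.prod_cons, chi_mul h2 (hl a (by simp)) h3, ih h1, List.map_cons, List.prod_cons]

end chi

section spin
variable {F V : Type*} [Field F] [Fintype F] [AddCommGroup V] [Module F V] [FiniteDimensional F V] {Q : QuadraticForm F V}

/-- **the spinor norm character** -/
theorem exists_spin (h2 : (2 : F) ≠ 0) (hQ : (QuadraticMap.polarBilin Q).Nondegenerate) (h : 2 ≤ finrank F V) :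
    ∃ spin : OGrp Q →* ℤˣ, (∀ v (hv : Q v ≠ 0), spin (oRefl Q v hv) = chi (Q v)) ∧
      ∀ g, g ∈ commutator (OGrp Q) ↔ (par hQ (Or.inl (exists_ne_one_of_odd h2)) g = 1 ∧ spin g = 1) := by
  obtain ⟨x, v', ν, hx, hv', hν, hQv', hs, -, -, hΩ⟩ := omega_odd h2 hQ h
  have hν0 : ν ≠ 0 := by rintro rfl; exact hν (IsSquare.zero)
  have hΩ' := hΩ 1 one_ne_zero
  have hs' := hs 1 one_ne_zero
  -- equality for equal classes
  have heq : ∀ (φ : OGrp Q →* ℤˣ) (v w : V) (hv : Q v ≠ 0) (hw : Q w ≠ 0), IsSquare (Q v / Q w) → φ (oRefl Q v hv) = φ (oRefl Q w hw) := by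
    intro φ v w hv hw hsq
    obtain ⟨t, ht⟩ := hsq
    have h1 := of_refl_eq hQ w v hw hv t (by rw [pow_two, ← ht, div_mul_cancel₀ _ hw])
    have h3 := congrArg (Abelianization.lift φ) h1
    simpa using h3
  have key : ∀ v (hv : Q v ≠ 0), sgnC Q 1 (oRefl Q v hv) = sgnC Q 1 (oRefl Q x hx) * chi (Q x) * chi (Q v) := by
    intro v hv
    by_cases hsq : IsSquare (Q v / Q x)
    · have h1 : chi (Q v) = chi (Q x) := by
        have h3 : Q v = Q v / Q x * Q x := by field_simp
        rw [h3, chi_mul h2 (div_ne_zero hv hx) hx, chi_eq_one.2 hsq, one_mul]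
      rw [h1, mul_assoc, Int.units_mul_self, mul_one]
      exact heq _ _ _ _ _ hsq
    · have h1 : chi (Q v) = - chi (Q x) := by
        have h3 : Q v = Q v / Q x * Q x := by field_simp
        rw [h3, chi_mul h2 (div_ne_zero hv hx) hx, chi_eq_neg.2 hsq, neg_one_mul]
      have h4 : IsSquare (Q v / Q v') := by
        rw [hQv']
        have h5 := isSquare_div_of_not h2 (Q v / Q x) ν (div_ne_zero hv hx) hν0 hsq hν
        have h6 : Q v / Q x / ν = Q v / (ν * Q x) := by field_simp
        rwa [h6] at h5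
      rw [heq (sgnC Q 1) v v' hv hv' h4, h1, hs']
      rw [mul_neg, mul_assoc, Int.units_mul_self, mul_one, neg_neg]
  rcases Int.units_eq_one_or (sgnC Q 1 (oRefl Q x hx) * chi (Q x)) with hκ | hκ
  · refine ⟨sgnC Q 1, fun v hv => by rw [key v hv, hκ, one_mul], hΩ'⟩
  · refine ⟨sgnC Q 1 * par hQ (Or.inl (exists_ne_one_of_odd h2)), fun v hv => ?_, fun g => ?_⟩
    · rw [MonoidHom.mul_apply, par_refl, key v hv, hκ]; simp
    · rw [hΩ', MonoidHom.mul_apply]
      constructor
      · rintro ⟨h1, h3⟩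
        exact ⟨h1, by rw [h1, h3]; rfl⟩
      · rintro ⟨h1, h3⟩
        rw [h1, mul_one] at h3
        exact ⟨h1, h3⟩

/-- the chosen spinor norm character -/
noncomputable def spin (h2 : (2 : F) ≠ 0) (hQ : (QuadraticMap.polarBilin Q).Nondegenerate) (h : 2 ≤ finrank F V) : OGrp Q →* ℤˣ :=
  (exists_spin h2 hQ h).choose

theorem spin_refl (h2 : (2 : F) ≠ 0) (hQ : (QuadraticMap.polarBilin Q).Nondegenerate) (h : 2 ≤ finrank F V) (v : V) (hv : Q v ≠ 0) :
    spin h2 hQ h (oRefl Q v hv) = chi (Q v) := (exists_spin h2 hQ h).choose_spec.1 v hv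

theorem mem_omega_iff (h2 : (2 : F) ≠ 0) (hQ : (QuadraticMap.polarBilin Q).Nondegenerate) (h : 2 ≤ finrank F V) (g : OGrp Q) :
    g ∈ commutator (OGrp Q) ↔ (par hQ (Or.inl (exists_ne_one_of_odd h2)) g = 1 ∧ spin h2 hQ h g = 1) :=
  (exists_spin h2 hQ h).choose_spec.2 g

theorem refl_prod_mem (h2 : (2 : F) ≠ 0) (hQ : (QuadraticMap.polarBilin Q).Nondegenerate) (h : 2 ≤ finrank F V)
    (l : List {v : V // Q v ≠ 0}) : (l.map fun v => oRefl Q v.1 v.2).prod ∈ commutator (OGrp Q) ↔
      (Even l.length ∧ IsSquare (l.map fun v => Q v.1).prod) := by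
  rw [mem_omega_iff h2 hQ h, map_list_prod, map_list_prod, List.map_map, List.map_map]
  have h1 : (l.map (⇑(par hQ (Or.inl (exists_ne_one_of_odd h2))) ∘ fun v => oRefl Q v.1 v.2)).prod = (-1) ^ l.length := by
    induction l with
    | nil => simp
    | cons a l ih =>
      rw [List.map_cons, List.prod_cons, ih, Function.comp_apply, par_refl, List.length_cons, pow_succ']
  have h3 : (l.map (⇑(spin h2 hQ h) ∘ fun v => oRefl Q v.1 v.2)).prod = chi (l.map fun v => Q v.1).prod := by
    rw [chi_prod h2, List.map_map]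
    · congr 1
      apply List.map_congr_left
      intro v _
      rw [Function.comp_apply, Function.comp_apply, spin_refl]
    · intro a ha
      obtain ⟨v, -, rfl⟩ := List.mem_map.1 ha
      exact v.2
  rw [h1, h3, chi_eq_one]
  refine and_congr ?_ Iff.rfl
  constructor
  · intro h4
    by_contra hne
    rw [Nat.not_even_iff_odd] at hne
    rw [hne.neg_one_pow] at h4
    exact absurd h4 (by decide)
  · intro h4; exact h4.neg_one_pow

/-- a torus element of a hyperbolic plane is a product of two reflections -/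
theorem hyp_scale {e f : V} (h : HP Q e f) (a : F) (ha : a ≠ 0) (g : OGrp Q) (hge : g.1 e = a • e) (hgf : g.1 f = a⁻¹ • f)
    (hg : ∀ x, QuadraticMap.polar Q e x = 0 → QuadraticMap.polar Q f x = 0 → g.1 x = x) :
    ∃ (h1 : Q (e - a • f) ≠ 0) (h2 : Q (e - f) ≠ 0), g = oRefl Q (e - f) h2 * oRefl Q (e - a • f) h1 := by
  have q1 : ∀ b : F, Q (e - b • f) = -b := by
    intro b
    rw [qsub, qsmul, h.1, h.2.1, QuadraticMap.polar_smul_right, h.2.2, smul_eq_mul]; ring
  have q2 : Q (e - f) = -1 := by have := q1 1; rwa [one_smul] at this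
  have h1 : Q (e - a • f) ≠ 0 := by rw [q1]; exact neg_ne_zero.2 ha
  have h2 : Q (e - f) ≠ 0 := by rw [q2]; exact neg_ne_zero.2 one_ne_zero
  refine ⟨h1, h2, ?_⟩
  apply og_ext
  intro x
  obtain ⟨w, hw⟩ : ∃ w, w = x - QuadraticMap.polar Q f x • e - QuadraticMap.polar Q e x • f := ⟨_, rfl⟩
  have hew : QuadraticMap.polar Q e w = 0 := by
    rw [hw]
    simp only [QuadraticMap.polar_sub_right, QuadraticMap.polar_smul_right, h.ee, h.2.2, smul_eq_mul]; ring
  have hfw : QuadraticMap.polar Q f w = 0 := by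
    rw [hw]
    simp only [QuadraticMap.polar_sub_right, QuadraticMap.polar_smul_right, h.ff, h.fe, smul_eq_mul]; ring
  have hx : x = QuadraticMap.polar Q f x • e + QuadraticMap.polar Q e x • f + w := by rw [hw]; abel
  generalize QuadraticMap.polar Q f x = α at hx
  generalize QuadraticMap.polar Q e x = β at hx
  subst hx
  rw [og_mul_apply, oRefl_apply, oRefl_apply, map_add, map_add, map_smul, map_smul, hge, hgf, hg w hew hfw, q1, q2]
  simp only [QuadraticMap.polar_sub_left, QuadraticMap.polar_sub_right, QuadraticMap.polar_add_right, QuadraticMap.polar_smul_right,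
    QuadraticMap.polar_smul_left, h.ee, h.ff, h.fe, h.2.2, hew, hfw, smul_eq_mul]
  have e1 : (-(1 : F))⁻¹ = -1 := by rw [inv_neg, inv_one]
  have e2 : (-a)⁻¹ = -a⁻¹ := inv_neg
  rw [e1, e2]
  have e3 : a⁻¹ * a = 1 := inv_mul_cancel₀ ha
  match_scalars <;> field_simp <;> ring

end spin

end CfsgLib.Spinor27
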