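import Mathlib
import Cfsg.Agent.EqBase
import Cfsg.Agent.LibStar23
import Cfsg.Agent.LibStar26
import Cfsg.Agent.LibStar27

/-!
# Contributions of central subsections, I: integrality and Galois action (helper18)
-/

set_option autoImplicit false
set_option linter.unusedSectionVars false
set_option linter.style.haveILetI false
set_option linter.unusedSimpArgs false
set_option linter.unusedVariables false

namespace CfsgLib.Star

open Cfsg CfsgLib.GalChar CfsgLib.GalField CfsgLib.BlockReg CfsgLib.BlockReg2 CfsgLib.LocR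
  CfsgLib.BrP CfsgLib.Car CfsgLib.BlockQP CfsgLib.BlockDefect
  CfsgLib.Points CfsgLib.PLocalInd CfsgLib.CharBasic CfsgLib.BlockCore CfsgLib.BlockSec
  CfsgLib.BlockR CfsgLib.BlockIdem CfsgLib.BlockOrth CfsgLib.CharIndA CfsgLib.CharNorm
open scoped ComplexConjugate Pointwise

universe u

section A

variable {M : Ideal AlgInt} [hPr : M.IsPrime] {G : Type u} [Group G] [Fintype G]
variable {p : ℕ} [hp : Fact p.Prime]

/-- class functions from conjugation invariant data -/
theorem star_cf (hM : IsPModular p M) {Hf : G → MonoidAlgebra (kM M) G → ℂ}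
    (hH : ∀ u s e, IsBlk (CH ⊤ (Subgroup.zpowers u)) e → Hf (s * u * s⁻¹) (cj s e) = Hf u e)
    {χ : G → ℂ} (hχ : IsClassFunction G χ) : IsClassFunction G (star p M Hf χ) := by
  classical
  haveI := charP_kM hM
  intro g x
  obtain ⟨u, s, rfl, hus, hu, hs⟩ := exists_us (p := p) g
  have hu' : ∃ j : ℕ, orderOf (x * u * x⁻¹) = p ^ j := by rw [orderOf_conj]; exact hu
  have hs' : ¬ p ∣ orderOf (x * s * x⁻¹) := by rw [orderOf_conj]; exact hs
  have hus' : Commute (x * u * x⁻¹) (x * s * x⁻¹) := by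
    show x * u * x⁻¹ * (x * s * x⁻¹) = x * s * x⁻¹ * (x * u * x⁻¹)
    have e1 : x * u * x⁻¹ * (x * s * x⁻¹) = x * (u * s) * x⁻¹ := by group
    have e2 : x * s * x⁻¹ * (x * u * x⁻¹) = x * (s * u) * x⁻¹ := by group
    rw [e1, e2, hus.eq]
  have e1 : x * (u * s) * x⁻¹ = (x * u * x⁻¹) * (x * s * x⁻¹) := by group
  rw [e1, star_us hu' hs' hus', star_us hu hs hus, ← e1, bl_conj (p := p) x u,
    Finset.sum_image (fun a _ b _ h => cj_injective x h)]
  refine Finset.sum_congr rfl fun e he => ?_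
  rw [mem_bl] at he
  rw [hH u x e he, cpart_conj hM hχ hu hs hus he x]

/-- values in the local ring -/
theorem star_val_ring (hM : IsPModular p M) {Hf : G → MonoidAlgebra (kM M) G → ℂ}
    (hint : ∀ u e, IsIntegral ℤ (Hf u e)) {χ : G → ℂ} (hχ : IsCharacter G χ) (g : G) :
    MemLocalRing M (star p M Hf χ g) := by
  have hp' := isPrime_of_modular hM
  obtain ⟨u, s, rfl, hus, hu, hs⟩ := exists_us (p := p) g
  rw [star_us hu hs hus]
  apply ring_sum hp'
  intro e he
  rw [mem_bl] at he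
  apply ring_mul hp' (memR_of_isIntegral (hint u e))
  unfold cpart
  apply ring_sum hp'
  intro w _
  refine ring_mul hp' (co_ring he w) (memR_of_isIntegral ?_)
  exact CfsgLib.CharInt.char_isIntegral hχ _

/-- integrality at the other primes -/
theorem star_rcomb_other' {Hf : G → MonoidAlgebra (kM M) G → ℂ} (hM : IsPModular p M)
    (hH : ∀ u s e, IsBlk (CH ⊤ (Subgroup.zpowers u)) e → Hf (s * u * s⁻¹) (cj s e) = Hf u e)
    (hint : ∀ u e, IsIntegral ℤ (Hf u e)) {χ : G → ℂ} (hχ : IsCharacter G χ) {q : ℕ}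
    (hq : q.Prime) (hqp : q ≠ p) {M' : Ideal AlgInt} (hM' : IsPModular q M') :
    RComb M' (star p M Hf χ) := by
  classical
  haveI : Fact q.Prime := ⟨hq⟩
  have hP' := isPrime_of_modular hM'
  refine rcomb_of_sections hM' (star_cf hM hH (char_classFun hχ)) ?_
  intro s hs S iS hS hSs
  obtain ⟨u, s', hs_eq, hus, hu, hs'⟩ := exists_us (p := p) s
  have hSu : ∀ v ∈ S, Commute v u := by
    intro v hv
    have h1 : Commute v s := mem_cen.1 (hSs hv)
    obtain ⟨i, hi⟩ := ppart_eq_zpow (show IsPPart p s u from ⟨s', hs_eq, hus, hu, hs'⟩)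
    rw [hi]
    exact h1.zpow_right i
  have hSs' : ∀ v ∈ S, Commute v s' := by
    intro v hv
    have h1 : Commute v s := mem_cen.1 (hSs hv)
    have h2 : s' = u⁻¹ * s := by rw [← hs_eq]; group
    rw [h2]
    exact ((hSu v hv).inv_right).mul_right h1
  have hvs : ∀ v ∈ S, ¬ p ∣ orderOf (v * s') := by
    intro v hv h
    obtain ⟨j, hj⟩ := IsPGroup.iff_orderOf.1 hS ⟨v, hv⟩
    rw [← Subgroup.orderOf_coe] at hj
    have h1 := h.trans (hSs' v hv).orderOf_mul_dvd_mul_orderOf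
    rcases (Nat.Prime.dvd_mul hp.out).1 h1 with h2 | h2
    · change p ∣ orderOf v at h2
      rw [show orderOf v = q ^ j from hj] at h2
      exact hqp ((Nat.prime_dvd_prime_iff_eq hp.out hq).1 (hp.out.dvd_of_dvd_pow h2)).symm
    · exact hs' h2
  have hval : ∀ v ∈ S, star p M Hf χ (v * s) = ∑ e ∈ bl (kM M) (CH ⊤ (Subgroup.zpowers u)),
      Hf u e * cpart M (CH ⊤ (Subgroup.zpowers u)) χ e (v * s) := by
    intro v hv
    have e1 : v * s = u * (v * s') := by
      rw [← hs_eq, ← mul_assoc, (hSu v hv).eq, mul_assoc]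
    rw [e1, star_us hu (hvs v hv) ((hSu v hv).symm.mul_right hus)]
  have hSC : S ≤ CH ⊤ (Subgroup.zpowers u) := by
    intro v hv
    rw [CH_zp, mem_cen]; exact (hSu v hv).eq
  have hsC : s ∈ CH ⊤ (Subgroup.zpowers u) := by
    rw [CH_zp, mem_cen, ← hs_eq, mul_assoc, ← hus.eq]
  set C := CH ⊤ (Subgroup.zpowers u) with hC
  haveI := Fintype.ofFinite C
  have hcl := char_classFun hχ
  -- projection
  let π : S →* S.subgroupOf C :=
    { toFun := fun v => ⟨⟨v, hSC v.2⟩, v.2⟩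
      map_one' := rfl
      map_mul' := fun _ _ => rfl }
  have h1 : (fun v : S => star p M Hf χ ((v : G) * s)) =
      ∑ e ∈ bl (kM M) C, Hf u e • ∑ θ : IrrCharacter C,
        (ind (bset M C e) θ * classInner (fun c : C => χ c) (θ : C → ℂ)) •
          ((fun w : S.subgroupOf C => (θ : C → ℂ) ((w : C) * ⟨s, hsC⟩)) ∘ π) := by
    funext v
    rw [hval v v.2, Finset.sum_apply]
    refine Finset.sum_congr rfl fun e _ => ?_
    rw [Pi.smul_apply, Finset.sum_apply, smul_eq_mul]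
    congr 1
    have h2 := cpart_expand (M := M) C hcl e (⟨(v : G) * s, C.mul_mem (hSC v.2) hsC⟩ : C)
    rw [h2]
    refine Finset.sum_congr rfl fun θ _ => ?_
    rw [Pi.smul_apply, smul_eq_mul, mul_assoc]
    rfl
  rw [h1]
  apply rcomb_sum hP'
  intro e _
  apply rcomb_smul hP'
  · haveI := hP'
    exact memR_of_isIntegral (hint u e)
  apply rcomb_sum hP'
  intro θ _
  refine rcomb_smul hP' (ring_mul hP' ?_ ?_) (rcomb_comp hP' ?_ π)
  · unfold ind
    rw [Set.indicator_apply]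
    split_ifs
    · exact ring_one hP'
    · exact ring_zero hP'
  · obtain ⟨n, hn⟩ := char_mult (isCharacter_restrict hχ C) (irr_isCharacter θ.2)
    rw [hn]; exact ring_nat hP' n
  · refine rcomb_translate hP' (irr_isCharacter θ.2) (S.subgroupOf C) ?_
    intro w hw
    rw [Subgroup.mem_centralizer_singleton_iff]
    apply Subtype.ext
    exact mem_cen.1 (hSs hw)

theorem HF_conj (hM : IsPModular p M) {P : Subgroup G} {c : MonoidAlgebra (kM M) G} {η : G → ℂ}
    (hst : FSt p P c η) (u s : G) (e : MonoidAlgebra (kM M) G)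
    (he : IsBlk (CH ⊤ (Subgroup.zpowers u)) e) :
    HF p P c η (s * u * s⁻¹) (cj s e) = HF p P c η u e := by
  by_cases h : ∃ x, Mv p P c u e x
  · obtain ⟨x, hx⟩ := h
    have hx' : Mv p P c (s * u * s⁻¹) (cj s e) (x * s⁻¹) := by
      rw [mv_mul, inv_mul_cancel_right]; exact hx
    rw [HF_of hst hx, HF_of hst hx']
    congr 1
    group
  · rw [HF_not h, HF_not]
    rintro ⟨x, hx⟩
    rw [mv_mul] at hx
    exact h ⟨_, hx⟩

theorem HF_int {P : Subgroup G} {c : MonoidAlgebra (kM M) G} {η : G → ℂ}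
    (hη : ∀ v, IsIntegral ℤ (η v)) (u : G) (e : MonoidAlgebra (kM M) G) :
    IsIntegral ℤ (HF p P c η u e) := by
  unfold HF
  split_ifs
  · exact hη _
  · exact isIntegral_zero

/-- the inner product with a member of the block -/
theorem inner_ring (hM : IsPModular p M) {B : Set (IrrCharacter G)} (hB : IsPBlock M B)
    {χ : IrrCharacter G} (hχ : χ ∈ B) {F : G → ℂ} (hF : IsClassFunction G F)
    (hFr : ∀ g, MemLocalRing M (F g)) :
    MemLocalRing M ((p ^ blockDefect p B : ℕ) * classInner F (χ : G → ℂ) /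
      (p ^ blockHeight p B (χ : G → ℂ) : ℕ)) := by
  classical
  have hp' := isPrime_of_modular hM
  have hpp : p.Prime := hp.out
  have h1 : classInner F (χ : G → ℂ) =
      (χ : G → ℂ) 1 / (Nat.card G : ℂ) * omg (χ : G → ℂ) (fun g => F g⁻¹) := by
    have hχ1 : (χ : G → ℂ) 1 ≠ 0 := irr_one_ne_zero χ.2
    unfold classInner omg
    rw [← Equiv.sum_comp (Equiv.inv G)]
    have h2 : ∀ g : G, F ((Equiv.inv G) g) * conj ((χ : G → ℂ) ((Equiv.inv G) g)) =
        F g⁻¹ * (χ : G → ℂ) g := by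
      intro g
      show F g⁻¹ * conj ((χ : G → ℂ) g⁻¹) = _
      rw [irr_inv χ.2, Complex.conj_conj]
    rw [Finset.sum_congr rfl fun g _ => h2 g]
    field_simp
  have h2 : MemLocalRing M (omg (χ : G → ℂ) (fun g => F g⁻¹)) := by
    apply CfsgLib.BlockBrauer.omg_ring hp' χ
    · intro g h
      show F (h * g * h⁻¹)⁻¹ = F g⁻¹
      have : (h * g * h⁻¹)⁻¹ = h * g⁻¹ * h⁻¹ := by group
      rw [this, hF]
    · intro g; exact hFr _
  have hd : charDegree (χ : G → ℂ) ≠ 0 := (CfsgLib.CharInt.irr_charDegree_pos χ.2).ne'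
  have h3 : ((p ^ blockDefect p B : ℕ) : ℂ) * classInner F (χ : G → ℂ) /
      (p ^ blockHeight p B (χ : G → ℂ) : ℕ) =
      (((p ^ blockDefect p B * charDegree (χ : G → ℂ) : ℕ) : ℂ) /
        ((Nat.card G * p ^ blockHeight p B (χ : G → ℂ) : ℕ) : ℂ)) *
        omg (χ : G → ℂ) (fun g => F g⁻¹) := by
    rw [h1, CfsgLib.CharInt.irr_one_eq_charDegree χ.2]
    push_cast
    have hG : (Nat.card G : ℂ) ≠ 0 := by exact_mod_cast Nat.card_pos.ne'
    have hq : (p : ℂ) ^ blockHeight p B (χ : G → ℂ) ≠ 0 :=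
      pow_ne_zero _ (by exact_mod_cast hpp.ne_zero)
    field_simp
  rw [h3]
  refine ring_mul hp' (ring_div_nat hM (mul_ne_zero Nat.card_pos.ne' (pow_ne_zero _ hpp.ne_zero)) ?_) h2
  rw [Nat.factorization_mul Nat.card_pos.ne' (pow_ne_zero _ hpp.ne_zero),
    Nat.factorization_mul (pow_ne_zero _ hpp.ne_zero) hd, hpp.factorization_pow,
    hpp.factorization_pow, Finsupp.add_apply, Finsupp.add_apply, Finsupp.single_eq_same,
    Finsupp.single_eq_same]
  have h4 := degree_ge_defect hM hB hχ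
  have h5 : sInf ((fun ψ : IrrCharacter G => (charDegree (ψ : G → ℂ)).factorization p) '' B) ≤
      (charDegree (χ : G → ℂ)).factorization p := Nat.sInf_le ⟨χ, hχ, rfl⟩
  unfold blockHeight
  unfold blockDefect at h4 ⊢
  omega

end A

section Gal

variable {M : Ideal AlgInt} [hPr : M.IsPrime] {G : Type u} [Group G] [Fintype G]
variable {p : ℕ} [hp : Fact p.Prime]

theorem cpart_conj_inv {χ : G → ℂ} (hχ : IsCharacter G χ) (C : Subgroup G)
    (e : MonoidAlgebra (kM M) G) (y : C) :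
    conj (cpart M C χ e (y : G)) = cpart M C χ e ((y : G)⁻¹) := by
  classical
  haveI := Fintype.ofFinite C
  have h1 : (y : G)⁻¹ = ((y⁻¹ : C) : G) := rfl
  rw [h1, cpart_expand C (char_classFun hχ), cpart_expand C (char_classFun hχ), map_sum]
  refine Finset.sum_congr rfl fun θ _ => ?_
  obtain ⟨n, hn⟩ := char_mult (isCharacter_restrict hχ C) (irr_isCharacter θ.2)
  rw [hn, map_mul, map_mul, Complex.conj_natCast, irr_inv θ.2]
  congr 1
  unfold ind
  rw [Set.indicator_apply]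
  split_ifs
  · rw [map_one]
  · rw [map_zero]

theorem pp_pow {u s : G} {k : ℕ} (hk : k.Coprime (Nat.card G)) :
    pp p (u ^ k * s ^ k) = u ^ k ↔ pp p (u * s) = u := by
  rw [pp_iff, pp_iff, orderOf_pow_of_coprime hk, orderOf_pow_of_coprime hk]
  refine and_congr_right fun _ => and_congr_left fun _ => ?_
  constructor
  · intro h
    have hu : u ∈ Subgroup.zpowers (u ^ k) := by
      rw [zpowers_pow_of_coprime hk]; exact Subgroup.mem_zpowers u
    have hs : s ∈ Subgroup.zpowers (s ^ k) := by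
      rw [zpowers_pow_of_coprime hk]; exact Subgroup.mem_zpowers s
    obtain ⟨i, hi⟩ := hu
    obtain ⟨j, hj⟩ := hs
    have h1 : Commute ((u ^ k) ^ i) ((s ^ k) ^ j) := (h.zpow_left i).zpow_right j
    have hi' : (u ^ k) ^ i = u := hi
    have hj' : (s ^ k) ^ j = s := hj
    rwa [hi', hj'] at h1
  · intro h
    exact (h.pow_left k).pow_right k

theorem WW_gal {χ : G → ℂ} (hχ : IsCharacter G χ) {σ : ℂ ≃+* ℂ} {k : ℕ}
    (hk : k.Coprime (Nat.card G)) (hσ : ∀ z : ℂ, z ^ Nat.card G = 1 → σ z = z ^ k) (u : G)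
    (e : MonoidAlgebra (kM M) G) : σ (WW p M u e χ χ) = WW p M (u ^ k) e χ χ := by
  classical
  unfold WW
  rw [map_sum, ← Equiv.sum_comp (powCoprime hk.symm) (fun s => if pp p (u ^ k * s) = u ^ k then
    dv M (u ^ k) e χ s * conj (dv M (u ^ k) e χ s) else 0)]
  refine Finset.sum_congr rfl fun s _ => ?_
  rw [powCoprime_apply]
  by_cases h : pp p (u * s) = u
  · rw [if_pos h, if_pos ((pp_pow hk).2 h), map_mul]
    obtain ⟨h1, h2, h3⟩ := pp_iff.1 h
    have hy : u * s ∈ CH ⊤ (Subgroup.zpowers u) := by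
      rw [CH_zp, mem_cen, mul_assoc, h2.eq]
    have e1 : u ^ k * s ^ k = (u * s) ^ k := (h2.mul_pow k).symm
    have h4 : dv M (u ^ k) e χ (s ^ k) = σ (dv M u e χ s) := by
      unfold dv
      rw [zpowers_pow_of_coprime hk, e1]
      exact cpart_gal hχ (CH ⊤ (Subgroup.zpowers u)) e hσ ⟨u * s, hy⟩
    have h5 : conj (dv M (u ^ k) e χ (s ^ k)) = σ (conj (dv M u e χ s)) := by
      unfold dv
      rw [zpowers_pow_of_coprime hk, e1]
      have h6 := cpart_conj_inv (M := M) hχ (CH ⊤ (Subgroup.zpowers u)) e (⟨u * s, hy⟩ ^ k)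
      have h7 := cpart_conj_inv (M := M) hχ (CH ⊤ (Subgroup.zpowers u)) e ⟨u * s, hy⟩
      have h8 := cpart_gal (M := M) hχ (CH ⊤ (Subgroup.zpowers u)) e hσ (⟨u * s, hy⟩⁻¹)
      have e2 : ((⟨u * s, hy⟩ ^ k : CH ⊤ (Subgroup.zpowers u)) : G) = (u * s) ^ k := rfl
      have e3 : ((⟨u * s, hy⟩⁻¹ : CH ⊤ (Subgroup.zpowers u)) : G) = (u * s)⁻¹ := rfl
      rw [e2] at h6
      rw [e3] at h8
      rw [h6, show conj (cpart M (CH ⊤ (Subgroup.zpowers u)) χ e (u * s)) = _ from h7, ← h8,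
        inv_pow]
    rw [h5, h4]
  · rw [if_neg h, if_neg (fun h' => h ((pp_pow hk).1 h')), map_zero]

variable [hch : CharP (kM M) p]

theorem ev_pow {P : Subgroup G} {c : MonoidAlgebra (kM M) G} (hPc : BP p ⊤ P c) {v : G} {k : ℕ}
    (hk : k.Coprime (Nat.card G)) (hv : v ∈ P) : ev p P c (v ^ k) = ev p P c v := by
  symm
  apply ev_unique hPc
  rw [zpowers_pow_of_coprime hk]
  exact ev_spec hPc hv

theorem Mv_pow {P : Subgroup G} {c e : MonoidAlgebra (kM M) G} {u x : G} {k : ℕ}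
    (hk : k.Coprime (Nat.card G)) : Mv p P c (u ^ k) e x ↔ Mv p P c u e x := by
  unfold Mv
  rw [zpowers_pow_of_coprime hk]

theorem GG_gal {P : Subgroup G} {c : MonoidAlgebra (kM M) G} (hPc : BP p ⊤ P c) {χ : G → ℂ}
    (hχ : IsCharacter G χ) {σ : ℂ ≃+* ℂ} {k : ℕ} (hk : k.Coprime (Nat.card G))
    (hσ : ∀ z : ℂ, z ^ Nat.card G = 1 → σ z = z ^ k) (v : P) :
    σ (GG p P c χ χ v) = GG p P c χ χ (v ^ k) := by
  classical
  unfold GG
  have e1 : ((v ^ k : P) : G) = (v : G) ^ k := rfl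
  have e2 : AA p P c ((v : G) ^ k) (ev p P c v) = AA p P c (v : G) (ev p P c v) := by
    ext x
    rw [mem_AA, mem_AA, Mv_pow hk]
  rw [e1, ev_pow hPc hk v.2, e2, map_div₀, map_mul, map_natCast, map_natCast, WW_gal hχ hk hσ]

end Gal

end CfsgLib.Star
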