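import Mathlib
import Cfsg.Agent.EqBase
import Cfsg.Agent.LibStar39
import Cfsg.Agent.LibBrP21

/-!
# Contributions of central subsections, II: the height bound (helper18)
-/

set_option autoImplicit false
set_option linter.unusedSectionVars false
set_option linter.style.haveILetI false
set_option linter.unusedSimpArgs false
set_option linter.unusedVariables false

namespace CfsgLib.Star

open Cfsg CfsgLib.GalChar CfsgLib.GalField CfsgLib.BlockReg CfsgLib.BlockReg2 CfsgLib.LocR
  CfsgLib.BrP CfsgLib.Car CfsgLib.BlockQP CfsgLib.BlockDefect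
  CfsgLib.Points CfsgLib.PLocalInd CfsgLib.CharBasic CfsgLib.BlockCore CfsgLib.BlockSec
  CfsgLib.BlockR CfsgLib.BlockIdem CfsgLib.BlockOrth CfsgLib.CharIndA CfsgLib.CharNorm
open scoped ComplexConjugate Pointwise

universe u

section Alg

variable {k : Type*} [Field k] {G : Type*} [Group G] [Fintype G] {p : ℕ}
variable [hp : Fact p.Prime] [CharP k p]

/-- fusion of central pairs is controlled by the stabilizer -/
theorem central_move {H P Q : Subgroup G} {B e f : MonoidAlgebra k G} (hB : IsBlk H B)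
    (hmx : IsMx p H B P e) (hPC : P ≤ Subgroup.centralizer (Q : Set G))
    (hle : LEp p H (Q, f) (P, e)) {x : G} (hx : x ∈ H)
    (hPC2 : P ≤ Subgroup.centralizer ((cS x Q : Subgroup G) : Set G))
    (hx' : LEp p H (cS x Q, cj x f) (P, e)) : ∃ y ∈ TS H P e, ∃ d ∈ CH H Q, x = y * d := by
  have hQP : Q ≤ P := hle.le
  have hPH := hmx.1.1.le
  have hPK : P ≤ CH H Q := le_inf hPH hPC
  have hn : Nrm p H Q f P e := hle.nrm hmx.1.1 (hPC.trans (centralizer_le_normalizer Q))
  have hbQ := hn.bpQ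
  have hfb : IsBlk (CH H Q) f := hbQ.blk
  have h1 := isMx_sub hB hmx hn (CH_le_TS hbQ) le_rfl hPK
  have hxi := H.inv_mem hx
  have hmx' := hmx.cj hB hxi
  have hle' := hx'.cj' hxi
  dsimp only at hle'
  rw [cS_inv_cS, cj_inv_cj] at hle'
  have hPC' : cS x⁻¹ P ≤ Subgroup.centralizer (Q : Set G) := by
    have h2 := cS_mono (x := x⁻¹) hPC2
    rw [← centralizer_cS, cS_inv_cS] at h2
    exact h2
  have hPK' : cS x⁻¹ P ≤ CH H Q := le_inf hmx'.1.1.le hPC'
  have hn' : Nrm p H Q f (cS x⁻¹ P) (cj x⁻¹ e) :=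
    hle'.nrm hmx'.1.1 (hPC'.trans (centralizer_le_normalizer Q))
  have h2 := isMx_sub hB hmx' hn' (CH_le_TS hbQ) le_rfl hPK'
  obtain ⟨c, hc, h3, h4⟩ := h1.conj hfb h2
  have hcH : c ∈ H := hc.1
  refine ⟨x * c, ⟨H.mul_mem hx hcH, ?_, ?_⟩, c⁻¹, Subgroup.inv_mem _ hc, by group⟩
  · rw [mem_normalizer_iff_cS, ← cS_cS, ← h3, cS_cS, mul_inv_cancel, cS_one]
  · rw [← cj_cj, ← h4, cj_cj, mul_inv_cancel, cj_one_left]

/-- blocks of `P C(P)` are blocks of `C(P)` -/
theorem blk_DC {P : Subgroup G} {x : MonoidAlgebra k G} (hP : IsPGroup p P)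
    (h : IsBlk (P ⊔ Subgroup.centralizer (P : Set G)) x) :
    IsBlk (Subgroup.centralizer (P : Set G)) x := by
  have hN : P ⊔ Subgroup.centralizer (P : Set G) ≤ Subgroup.normalizer (P : Set G) :=
    sup_le Subgroup.le_normalizer (centralizer_le_normalizer P)
  have hs := idem_supp le_sup_left hP hN h.zh h.idem
  refine ⟨⟨hs, fx_mono le_sup_right h.zh.2⟩, h.idem, h.ne, fun z hz hzz => ?_⟩
  refine h.prim z ⟨supp_mono le_sup_right hz.1, ?_⟩ hzz
  have h1 : Fx P z := fx_of_supp_centralizer hz.1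
  rw [fx_iff] at h1
  have h2 := hz.2
  rw [fx_iff] at h2
  rw [fx_iff]
  intro y hy
  have h3 : P ⊔ Subgroup.centralizer (P : Set G) ≤
      { carrier := {g : G | cj g z = z}
        mul_mem' := fun {a b} ha hb => by
          show cj (a * b) z = z
          rw [← cj_cj, show cj b z = z from hb, show cj a z = z from ha]
        one_mem' := cj_one_left z
        inv_mem' := fun {a} ha => by
          show cj a⁻¹ z = z
          have ha' : cj a z = z := ha
          conv_lhs => rw [← ha']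
          rw [cj_inv_cj] : Subgroup G } := sup_le h1 h2
  exact h3 hy

end Alg

section Main

variable {M : Ideal AlgInt} [hPr : M.IsPrime] {G : Type u} [Group G] [Fintype G]
variable {p : ℕ} [hp : Fact p.Prime] [hch : CharP (kM M) p]

open Classical in
/-- indicator of the fusion class of `z` -/
noncomputable def eo (p : ℕ) (P : Subgroup G) (c : MonoidAlgebra (kM M) G) (z : G) (v : G) : ℂ :=
  if ∃ x, Mv p P c z (ev p P c z) x ∧ x * z * x⁻¹ = v then 1 else 0

theorem eo_of {P : Subgroup G} {c : MonoidAlgebra (kM M) G} {z v : G}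
    (h : ∃ x, Mv p P c z (ev p P c z) x ∧ x * z * x⁻¹ = v) : eo p P c z v = 1 := by
  unfold eo; rw [if_pos h]

theorem eo_not {P : Subgroup G} {c : MonoidAlgebra (kM M) G} {z v : G}
    (h : ¬ ∃ x, Mv p P c z (ev p P c z) x ∧ x * z * x⁻¹ = v) : eo p P c z v = 0 := by
  unfold eo; rw [if_neg h]

theorem eo_cases (P : Subgroup G) (c : MonoidAlgebra (kM M) G) (z v : G) :
    eo p P c z v = 0 ∨ eo p P c z v = 1 := by
  by_cases h : ∃ x, Mv p P c z (ev p P c z) x ∧ x * z * x⁻¹ = v
  · exact Or.inr (eo_of h)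
  · exact Or.inl (eo_not h)

theorem eo_aux {P : Subgroup G} {c e : MonoidAlgebra (kM M) G} (hPc : BP p ⊤ P c) {z u x y : G}
    (hx : Mv p P c u e x) (hy : Mv p P c u e y)
    (h : ∃ w, Mv p P c z (ev p P c z) w ∧ w * z * w⁻¹ = x * u * x⁻¹) :
    ∃ w, Mv p P c z (ev p P c z) w ∧ w * z * w⁻¹ = y * u * y⁻¹ := by
  obtain ⟨w, hw, h1⟩ := h
  refine ⟨y * x⁻¹ * w, ?_, ?_⟩
  · rw [← mv_mul, ev_mv_conj hPc hw, h1, ← ev_mv_conj hPc hx, mv_mul, inv_mul_cancel_right]
    exact hy
  · have : y * x⁻¹ * w * z * (y * x⁻¹ * w)⁻¹ = y * x⁻¹ * (w * z * w⁻¹) * (y * x⁻¹)⁻¹ := by group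
    rw [this, h1]
    group

theorem eo_fst {P : Subgroup G} {c : MonoidAlgebra (kM M) G} (hPc : BP p ⊤ P c) (z : G) :
    FSt p P c (eo p P c z) := by
  intro u e x y hx hy
  by_cases h : ∃ w, Mv p P c z (ev p P c z) w ∧ w * z * w⁻¹ = x * u * x⁻¹
  · rw [eo_of h, eo_of (eo_aux hPc hx hy h)]
  · rw [eo_not h, eo_not (fun h' => h (eo_aux hPc hy hx h'))]

theorem eo_self {P : Subgroup G} {c : MonoidAlgebra (kM M) G} (hPc : BP p ⊤ P c) {z : G}
    (hz : z ∈ P) : eo p P c z z = 1 :=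
  eo_of ⟨1, ev_mv hPc hz, by group⟩

theorem eo_int (P : Subgroup G) (c : MonoidAlgebra (kM M) G) (z v : G) :
    IsIntegral ℤ (eo p P c z v) := by
  rcases eo_cases (p := p) P c z v with h | h <;> rw [h]
  · exact isIntegral_zero
  · exact isIntegral_one

theorem pow_inj_of_coprime {k : ℕ} (hk : k.Coprime (Nat.card G)) {a b : G} (h : a ^ k = b ^ k) :
    a = b := by
  have := (powCoprime (G := G) hk.symm).injective
  exact this h

theorem eo_gal {P : Subgroup G} {c : MonoidAlgebra (kM M) G} (hPc : BP p ⊤ P c) {z v : G}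
    (hz : z ∈ P) {k : ℕ} (hk : k.Coprime (Nat.card G)) :
    eo p P c (z ^ k) (v ^ k) = eo p P c z v := by
  have h1 : (∃ x, Mv p P c (z ^ k) (ev p P c (z ^ k)) x ∧ x * z ^ k * x⁻¹ = v ^ k) ↔
      ∃ x, Mv p P c z (ev p P c z) x ∧ x * z * x⁻¹ = v := by
    refine exists_congr fun x => ?_
    rw [ev_pow hPc hk hz, Mv_pow hk]
    refine and_congr_right fun _ => ?_
    rw [← conj_pow]
    exact ⟨fun h => pow_inj_of_coprime hk h, fun h => by rw [h]⟩
  by_cases h : ∃ x, Mv p P c z (ev p P c z) x ∧ x * z * x⁻¹ = v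
  · rw [eo_of h, eo_of (h1.2 h)]
  · rw [eo_not h, eo_not (fun h' => h (h1.1 h'))]

/-- the contribution of the fusion class of `z` -/
noncomputable def mz (p : ℕ) [Fact p.Prime] (P : Subgroup G) [Fintype P]
    (c : MonoidAlgebra (kM M) G) (χ : G → ℂ) (z : G) : ℂ :=
  ∑ v : P, eo p P c z v * GG p P c χ χ v

theorem mz_eq (hM : IsPModular p M) {B : Set (IrrCharacter G)} (hB : IsPBlock M B)
    {P : Subgroup G} [Fintype P] {c : MonoidAlgebra (kM M) G} (hmx : IsMx p ⊤ (JB M B) P c)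
    {χ : IrrCharacter G} (hχ : χ ∈ B) (z : G) :
    mz p P c (χ : G → ℂ) z = (Nat.card P : ℂ) *
      classInner (star p M (HF p P c (eo p P c z)) (χ : G → ℂ)) (χ : G → ℂ) := by
  have hPc := hmx.1.1
  have h4 := inner_star_GG hM hB hmx (eo_fst hPc z) (FSt_const P c 1) hχ (irr_classFun χ.2)
  rw [star_HF_one hM hB hmx hχ] at h4
  have hP : (Nat.card P : ℂ) ≠ 0 := by exact_mod_cast Nat.card_pos.ne'
  rw [h4, mul_inv_cancel_left₀ hP]
  unfold mz
  refine Finset.sum_congr rfl fun v _ => ?_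
  rw [map_one, mul_one]

theorem card_P (hM : IsPModular p M) {B : Set (IrrCharacter G)} (hB : IsPBlock M B)
    {P : Subgroup G} {c : MonoidAlgebra (kM M) G} (hmx : IsMx p ⊤ (JB M B) P c) :
    Nat.card P = p ^ blockDefect p B :=
  card_defectGroup hM hB ((g_def hM hB).2 (hmx.isDef (g_blk hB)))

/-- integrality at `p` -/
theorem mz_ring (hM : IsPModular p M) {B : Set (IrrCharacter G)} (hB : IsPBlock M B)
    {P : Subgroup G} [Fintype P] {c : MonoidAlgebra (kM M) G} (hmx : IsMx p ⊤ (JB M B) P c)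
    {χ : IrrCharacter G} (hχ : χ ∈ B) (z : G) :
    MemLocalRing M (mz p P c (χ : G → ℂ) z / (p ^ blockHeight p B (χ : G → ℂ) : ℕ)) := by
  rw [mz_eq hM hB hmx hχ, card_P hM hB hmx]
  exact inner_ring hM hB hχ (star_cf hM (fun u s e he => HF_conj hM (eo_fst hmx.1.1 z) u s e he)
    (irr_classFun χ.2)) (fun g => star_val_ring hM (HF_int (eo_int P c z))
      (irr_isCharacter χ.2) g)

/-- integrality at the other primes -/
theorem mz_ring_other (hM : IsPModular p M) {B : Set (IrrCharacter G)} (hB : IsPBlock M B)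
    {P : Subgroup G} [Fintype P] {c : MonoidAlgebra (kM M) G} (hmx : IsMx p ⊤ (JB M B) P c)
    {χ : IrrCharacter G} (hχ : χ ∈ B) (z : G) {q : ℕ}
    (hq : q.Prime) (hqp : q ≠ p) {M' : Ideal AlgInt} (hM' : IsPModular q M') :
    MemLocalRing M' (mz p P c (χ : G → ℂ) z / (p ^ blockHeight p B (χ : G → ℂ) : ℕ)) := by
  have hP' := isPrime_of_modular hM'
  haveI : Fact q.Prime := ⟨hq⟩
  rw [mz_eq hM hB hmx hχ, div_eq_mul_inv]
  refine ring_mul hP' (ring_mul hP' (ring_nat hP' _) ?_) (memR_natCast_inv hM' ?_)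
  · exact (star_rcomb_other' hM (fun u s e he => HF_conj hM (eo_fst hmx.1.1 z) u s e he)
      (HF_int (eo_int P c z)) (irr_isCharacter χ.2) hq hqp hM').2 χ
  · intro h
    exact hqp ((Nat.prime_dvd_prime_iff_eq hq hp.out).1 (hq.dvd_of_dvd_pow h))

theorem mz_gal {P : Subgroup G} [Fintype P] {c : MonoidAlgebra (kM M) G} (hPc : BP p ⊤ P c)
    {χ : G → ℂ} (hχ : IsCharacter G χ) {σ : ℂ ≃+* ℂ} {k : ℕ} (hk : k.Coprime (Nat.card G))
    (hσ : ∀ z : ℂ, z ^ Nat.card G = 1 → σ z = z ^ k) {z : G} (hz : z ∈ P) :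
    σ (mz p P c χ z) = mz p P c χ (z ^ k) := by
  unfold mz
  have hkP : (Nat.card P).Coprime k :=
    (Nat.Coprime.coprime_dvd_right (Subgroup.card_subgroup_dvd_card P) hk).symm
  rw [map_sum, ← Equiv.sum_comp (powCoprime hkP)
    (fun v : P => eo p P c (z ^ k) v * GG p P c χ χ v)]
  refine Finset.sum_congr rfl fun v _ => ?_
  rw [map_mul, GG_gal hPc hχ hk hσ, powCoprime_apply]
  have e1 : ((v ^ k : P) : G) = (v : G) ^ k := rfl
  rw [e1, eo_gal hPc hz hk]
  congr 1
  rcases eo_cases (p := p) P c z v with h | h <;> rw [h]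
  · rw [map_zero]
  · rw [map_one]

theorem mz_pos (hM : IsPModular p M) {B : Set (IrrCharacter G)} (hB : IsPBlock M B)
    {P : Subgroup G} [Fintype P] {c : MonoidAlgebra (kM M) G} (hmx : IsMx p ⊤ (JB M B) P c)
    {χ : IrrCharacter G} (hχ : χ ∈ B) {z : G} (hz : z ∈ P) (hcen : ∀ v ∈ P, v * z = z * v) :
    ∃ r : ℝ, 0 < r ∧ mz p P c (χ : G → ℂ) z = r := by
  classical
  have hPc := hmx.1.1
  choose r hr0 hr using fun v : P => GG_self P c (χ : G → ℂ) v
  obtain ⟨r', hr', hr1⟩ := GG_pos hPc (χ := (χ : G → ℂ)) (v := ⟨z, hz⟩)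
    (dv_major hM hB hmx hχ hz hcen)
  have hrr : r ⟨z, hz⟩ = r' := by
    have := (hr ⟨z, hz⟩).symm.trans hr1
    exact_mod_cast this
  have hep : ∀ v : P, ∃ t : ℝ, 0 ≤ t ∧ eo p P c z v = t := by
    intro v
    rcases eo_cases (p := p) P c z v with h | h <;> rw [h]
    · exact ⟨0, le_rfl, by simp⟩
    · exact ⟨1, zero_le_one, by simp⟩
  choose t ht0 ht using hep
  refine ⟨∑ v : P, t v * r v, ?_, ?_⟩
  · apply Finset.sum_pos'
    · intro v _; exact mul_nonneg (ht0 v) (hr0 v)
    · refine ⟨⟨z, hz⟩, Finset.mem_univ _, ?_⟩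
      have h1 : t ⟨z, hz⟩ = 1 := by
        have := ht ⟨z, hz⟩
        rw [show eo p P c z ((⟨z, hz⟩ : P) : G) = 1 from eo_self hPc hz] at this
        exact_mod_cast this.symm
      rw [h1, one_mul, hrr]; exact hr'
  · unfold mz
    push_cast
    refine Finset.sum_congr rfl fun v _ => ?_
    rw [ht, hr]

/-- the number of central elements in a fusion class -/
theorem eo_count {B : MonoidAlgebra (kM M) G} (hB : IsBlk ⊤ B)
    {P : Subgroup G} [Fintype P] {c : MonoidAlgebra (kM M) G} (hmx : IsMx p ⊤ B P c)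
    [Fintype (Subgroup.center P)] (v : G) : ∃ m : ℕ,
      m ≤ (P ⊔ Subgroup.centralizer (P : Set G)).relIndex (TS ⊤ P c) ∧
      ∑ z : Subgroup.center P, eo p P c ((z : P) : G) v = m := by
  classical
  have hPc := hmx.1.1
  set S := {z : Subgroup.center P // ∃ x, Mv p P c ((z : P) : G) (ev p P c ((z : P) : G)) x ∧
    x * ((z : P) : G) * x⁻¹ = v} with hS
  refine ⟨Nat.card S, ?_, ?_⟩
  · by_cases hne : Nonempty S
    · obtain ⟨⟨z₀, x₀, hx₀, hv₀⟩⟩ := hne
      have hzcen : ∀ z : Subgroup.center P, ∀ w ∈ P, w * ((z : P) : G) = ((z : P) : G) * w := by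
        intro z w hw
        have h1 := Subgroup.mem_center_iff.1 z.2 ⟨w, hw⟩
        exact congrArg Subtype.val h1
      have hcenP : ∀ z : Subgroup.center P, P ≤ Subgroup.centralizer
          ((Subgroup.zpowers ((z : P) : G) : Subgroup G) : Set G) := by
        intro z w hw
        rw [CfsgLib.BlockOrth.centralizer_zpowers]
        exact mem_cen.2 (hzcen z w hw)
      have key : ∀ s : S, ∃ y ∈ TS ⊤ P c, y * ((z₀ : P) : G) * y⁻¹ = (((s : S).1 : P) : G) := by
        rintro ⟨z, x, hx, hv⟩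
        have h1 : cj (x⁻¹ * x₀) (ev p P c ((z₀ : P) : G)) = ev p P c ((z : P) : G) := by
          rw [← cj_cj, ev_mv_conj hPc hx₀, hv₀, ← hv, ← ev_mv_conj hPc hx, cj_inv_cj]
        have h2 : (x⁻¹ * x₀) * ((z₀ : P) : G) * (x⁻¹ * x₀)⁻¹ = ((z : P) : G) := by
          have : (x⁻¹ * x₀) * ((z₀ : P) : G) * (x⁻¹ * x₀)⁻¹ =
            x⁻¹ * (x₀ * ((z₀ : P) : G) * x₀⁻¹) * x := by group
          rw [this, hv₀, ← hv]; group
        have h3 : cS (x⁻¹ * x₀) (Subgroup.zpowers ((z₀ : P) : G)) =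
            Subgroup.zpowers ((z : P) : G) := by rw [cS_zpowers, h2]
        obtain ⟨y, hy, d, hd, h4⟩ := central_move hB hmx (hcenP z₀) (ev_spec hPc (z₀ : P).2)
          (Subgroup.mem_top (x⁻¹ * x₀)) (by rw [h3]; exact hcenP z)
          (by rw [h3, h1]; exact ev_spec hPc (z : P).2)
        refine ⟨y, hy, ?_⟩
        show _ = ((z : P) : G)
        rw [← h2, h4]
        have h5 : d * ((z₀ : P) : G) = ((z₀ : P) : G) * d := comm_of_C hd
        calc y * ((z₀ : P) : G) * y⁻¹ = y * (((z₀ : P) : G) * d) * d⁻¹ * y⁻¹ := by group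
          _ = y * (d * ((z₀ : P) : G)) * d⁻¹ * y⁻¹ := by rw [h5]
          _ = _ := by group
      choose y hyT hy using key
      let F : S → (TS ⊤ P c) ⧸ ((P ⊔ Subgroup.centralizer (P : Set G)).subgroupOf (TS ⊤ P c)) :=
        fun s => QuotientGroup.mk ⟨y s, hyT s⟩
      have hF : Function.Injective F := by
        intro s s' hss
        have h1 := QuotientGroup.eq.1 hss
        rw [Subgroup.mem_subgroupOf] at h1
        have h2 : (y s)⁻¹ * y s' ∈ P ⊔ Subgroup.centralizer (P : Set G) := h1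
        have h3 : P ⊔ Subgroup.centralizer (P : Set G) ≤
            Subgroup.centralizer ({((z₀ : P) : G)} : Set G) := by
          apply sup_le
          · intro w hw
            exact mem_cen.2 (hzcen z₀ w hw)
          · intro w hw
            refine mem_cen.2 ?_
            exact (Subgroup.mem_centralizer_iff.1 hw _ (z₀ : P).2).symm
        have h4 := mem_cen.1 (h3 h2)
        apply Subtype.ext
        apply Subtype.ext
        apply Subtype.ext
        rw [← hy s, ← hy s']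
        have h5 : (y s)⁻¹ * y s' * ((z₀ : P) : G) = ((z₀ : P) : G) * ((y s)⁻¹ * y s') := h4
        calc y s * ((z₀ : P) : G) * (y s)⁻¹ =
            y s * (((z₀ : P) : G) * ((y s)⁻¹ * y s')) * (y s')⁻¹ := by group
          _ = y s * ((y s)⁻¹ * y s' * ((z₀ : P) : G)) * (y s')⁻¹ := by rw [h5]
          _ = _ := by group
      exact Nat.card_le_card_of_injective F hF
    · haveI := not_nonempty_iff.1 hne
      rw [Nat.card_of_isEmpty]; exact Nat.zero_le _
  · unfold eo
    rw [Finset.sum_boole, Nat.card_eq_fintype_card, Fintype.card_subtype]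

/-- AM-GM for positive numbers with product at least one -/
theorem sum_ge_card {ι : Type*} [Fintype ι] {a : ι → ℝ} (ha : ∀ i, 0 < a i)
    (h : 1 ≤ ∏ i, a i) : (Fintype.card ι : ℝ) ≤ ∑ i, a i := by
  have h1 : ∀ i, 1 + Real.log (a i) ≤ a i := fun i => by
    have := Real.log_le_sub_one_of_pos (ha i)
    linarith
  have h2 : ∑ i, (1 + Real.log (a i)) ≤ ∑ i, a i := Finset.sum_le_sum fun i _ => h1 i
  rw [Finset.sum_add_distrib, Finset.sum_const, Finset.card_univ, nsmul_eq_mul, mul_one,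
    ← Real.log_prod (fun i _ => (ha i).ne')] at h2
  have h3 := Real.log_nonneg h
  linarith

theorem height_bound (hM : IsPModular p M) {B : Set (IrrCharacter G)} (hB : IsPBlock M B)
    {P : Subgroup G} {c : MonoidAlgebra (kM M) G} (hmx : IsMx p ⊤ (JB M B) P c)
    {χ : IrrCharacter G} (hχ : χ ∈ B) :
    p ^ blockHeight p B (χ : G → ℂ) * Nat.card (Subgroup.center P) ≤
      (P ⊔ Subgroup.centralizer (P : Set G)).relIndex (TS ⊤ P c) * Nat.card P := by
  classical
  haveI := Fintype.ofFinite P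
  haveI := Fintype.ofFinite (Subgroup.center P)
  have hPc := hmx.1.1
  set h := blockHeight p B (χ : G → ℂ) with hh
  have hph : (0 : ℝ) < ((p ^ h : ℕ) : ℝ) := by
    exact_mod_cast pow_pos hp.out.pos h
  have hcen : ∀ z : Subgroup.center P, ∀ w ∈ P, w * ((z : P) : G) = ((z : P) : G) * w := by
    intro z w hw
    have h1 := Subgroup.mem_center_iff.1 z.2 ⟨w, hw⟩
    exact congrArg Subtype.val h1
  choose r hr0 hr using fun z : Subgroup.center P =>
    mz_pos hM hB hmx hχ (z : P).2 (hcen z)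
  -- the product is a rational integer
  set Q0 : ℂ := ∏ z : Subgroup.center P, (mz p P c (χ : G → ℂ) ((z : P) : G) / (p ^ h : ℕ)) with hQ0
  have hring : MemLocalRing M Q0 := by
    rw [hQ0]
    refine Finset.prod_induction _ (MemLocalRing M) (fun a b ha hb => ring_mul hPr ha hb)
      (ring_one hPr) fun z _ => ?_
    exact mz_ring hM hB hmx hχ _
  have hfix : ∀ σ : ℂ ≃+* ℂ, σ Q0 = Q0 := by
    intro σ
    obtain ⟨k, hk, hσ⟩ := exists_k (Nat.card G) Nat.card_pos σ
    have hkZ : (Nat.card (Subgroup.center P)).Coprime k :=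
      (Nat.Coprime.coprime_dvd_right ((Subgroup.card_subgroup_dvd_card _).trans
        (Subgroup.card_subgroup_dvd_card P)) hk).symm
    rw [hQ0, map_prod]
    conv_rhs => rw [← Equiv.prod_comp (powCoprime hkZ)]
    refine Finset.prod_congr rfl fun z _ => ?_
    rw [map_div₀, map_natCast, mz_gal hPc (irr_isCharacter χ.2) hk hσ (z : P).2,
      powCoprime_apply]
    rfl
  obtain ⟨q, hq⟩ := exists_rat_of_fixed (rcomb_isAlgebraic hring) hfix
  obtain ⟨N, hN⟩ := int_of_local (q := q) (fun l hl => by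
    by_cases hlp : l = p
    · subst hlp
      exact ⟨M, hM, by rw [← hq]; exact hring⟩
    · obtain ⟨M', hM'⟩ := exists_modular l hl
      refine ⟨M', hM', ?_⟩
      have hP' := isPrime_of_modular hM'
      rw [← hq, hQ0]
      refine Finset.prod_induction _ (MemLocalRing M') (fun a b ha hb => ring_mul hP' ha hb)
        (ring_one hP') fun z _ => ?_
      exact mz_ring_other hM hB hmx hχ _ hl hlp hM')
  have hQr : Q0 = ((∏ z : Subgroup.center P, (r z / ((p ^ h : ℕ) : ℝ)) : ℝ) : ℂ) := by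
    rw [hQ0, Complex.ofReal_prod]
    refine Finset.prod_congr rfl fun z _ => ?_
    rw [hr z, Complex.ofReal_div, Complex.ofReal_natCast]
  have hprod : (∏ z : Subgroup.center P, (r z / ((p ^ h : ℕ) : ℝ))) = (N : ℝ) := by
    have : (((∏ z : Subgroup.center P, (r z / ((p ^ h : ℕ) : ℝ)) : ℝ) : ℂ)) = ((N : ℝ) : ℂ) := by
      rw [← hQr, hq, hN]; simp
    exact_mod_cast this
  have hpos : (0 : ℝ) < N := by
    rw [← hprod]
    exact Finset.prod_pos fun z _ => div_pos (hr0 z) hph
  have hN1 : (1 : ℝ) ≤ N := by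
    have : (0 : ℤ) < N := by exact_mod_cast hpos
    exact_mod_cast this
  have h1 := sum_ge_card (a := fun z : Subgroup.center P => r z / ((p ^ h : ℕ) : ℝ))
    (fun z => div_pos (hr0 z) hph) (by rw [hprod]; exact hN1)
  rw [← Finset.sum_div, le_div_iff₀ hph] at h1
  -- the upper bound
  set e := (P ⊔ Subgroup.centralizer (P : Set G)).relIndex (TS ⊤ P c) with he
  have h2 : ∑ z : Subgroup.center P, r z ≤ (e : ℝ) * Nat.card P := by
    choose g hg0 hg using fun v : P => GG_self P c (χ : G → ℂ) v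
    choose m hm hmv using fun v : G => eo_count (g_blk hB) hmx v
    have h3 : ((∑ z : Subgroup.center P, r z : ℝ) : ℂ) = ((∑ v : P, (m v : ℝ) * g v : ℝ) : ℂ) := by
      rw [Complex.ofReal_sum, Complex.ofReal_sum]
      have : ∀ z : Subgroup.center P, ((r z : ℝ) : ℂ) =
          ∑ v : P, eo p P c ((z : P) : G) v * GG p P c (χ : G → ℂ) (χ : G → ℂ) v := by
        intro z; rw [← hr z]; rfl
      rw [Finset.sum_congr rfl fun z _ => this z, Finset.sum_comm]
      refine Finset.sum_congr rfl fun v _ => ?_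
      rw [← Finset.sum_mul, hmv, hg]
      push_cast; ring
    have h4 : ∑ z : Subgroup.center P, r z = ∑ v : P, (m v : ℝ) * g v := by exact_mod_cast h3
    have h5 : ∑ v : P, g v = Nat.card P := by
      have := sum_GG hM hB hmx hχ
      simp_rw [hg] at this
      exact_mod_cast this
    rw [h4, ← h5, Finset.mul_sum]
    exact Finset.sum_le_sum fun v _ => mul_le_mul_of_nonneg_right (by exact_mod_cast hm v) (hg0 v)
  have h3 : (Fintype.card (Subgroup.center P) : ℝ) * ((p ^ h : ℕ) : ℝ) ≤ (e : ℝ) * Nat.card P :=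
    h1.trans h2
  rw [Nat.card_eq_fintype_card (α := Subgroup.center P), mul_comm]
  exact_mod_cast h3

end Main

section Fin

variable {M : Ideal AlgInt} {G : Type u} [Group G] [Fintype G] {p : ℕ} [hp : Fact p.Prime]

theorem s4715 (hM : IsPModular p M) (B : Set (IrrCharacter G)) (hB : IsPBlock M B)
    (D : Subgroup G) (hBD : IsDefectGroup p M B D) (d : ℕ) (hDd : Nat.card D = p ^ d)
    (H : Subgroup G) (hH : H = D ⊔ Subgroup.centralizer (D : Set G)) (b : Set (IrrCharacter H))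
    (hind : IsInducedBlock M H b B) (T : Subgroup G)
    (hT : ∀ g : G, g ∈ T ↔ (g ∈ Subgroup.normalizer (D : Set G) ∧ ∀ θ ∈ b, ∀ θ' : IrrCharacter H,
      (∀ h h' : H, (h' : G) = g * h * g⁻¹ → (θ' : H → ℂ) h' = (θ : H → ℂ) h) → θ' ∈ b))
    (e : ℕ) (he : H.relIndex T = e) (n : ℕ) (hn : p ^ n ≤ e ∧ e < p ^ (n + 1)) (c : ℕ)
    (hc : Nat.card (Subgroup.center D) = p ^ c) :
    ∀ χ ∈ B, blockHeight p B (χ : G → ℂ) + c ≤ n + d := by
  classical
  haveI hPr : M.IsPrime := isPrime_of_modular hM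
  haveI : M.IsMaximal := hM.2.1
  haveI := charP_kM hM
  have hD := (g_def hM hB).1 hBD
  have hN : H ≤ Subgroup.normalizer (D : Set G) := by
    rw [hH]
    exact sup_le Subgroup.le_normalizer (centralizer_le_normalizer D)
  have hb := hind.1
  have hbr : Br D (JB M B) * bk M H.subtype b = bk M H.subtype b :=
    ind_br hM hD.pg (by rw [hH]; exact le_sup_left) hN (by rw [hH]; exact le_sup_right) hind
  have hblk : IsBlk (Subgroup.centralizer (D : Set G)) (bk M H.subtype b) :=
    blk_DC hD.pg (by rw [← hH]; exact h_blk hb)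
  have hof : Of p ⊤ (JB M B) D (bk M H.subtype b) :=
    ⟨⟨le_top, hD.pg, by rw [CH_top]; exact hblk⟩, hbr⟩
  have hmx := isMx_of_isDef (g_blk hB) hD hof
  have hTS : T = TS ⊤ D (bk M H.subtype b) := by
    ext x
    rw [hT]
    have hst := stab_iff (ι := MonoidHom.id G) id_inj hb (x := x)
    rw [show (MonoidHom.id G).comp H.subtype = H.subtype from rfl,
      show (MonoidHom.id G) x = x from rfl] at hst
    have hxH : x ∈ Subgroup.normalizer (D : Set G) → x ∈ Subgroup.normalizer (H : Set G) := by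
      intro hx
      rw [mem_normalizer_iff_cS]
      have h1 : cS x D = D := cS_of_normalizer hx
      have h2 : cS x (Subgroup.centralizer (D : Set G)) = Subgroup.centralizer (D : Set G) := by
        rw [← centralizer_cS, h1]
      rw [hH]
      unfold cS at h1 h2 ⊢
      rw [Subgroup.map_sup, h1, h2]
    constructor
    · rintro ⟨hx, h⟩
      refine ⟨Subgroup.mem_top x, hx, (hst.1 ⟨hxH hx, fun χ hχ => ?_⟩).2⟩
      have hC : H = cS x H := (cS_of_normalizer (hxH hx)).symm
      have hc : ∀ k k' : H, (k' : G) = x * k * x⁻¹ →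
          (trI (cI x hC) χ : H → ℂ) k' = (χ : H → ℂ) k := by
        intro k k' hk
        have : k' = cI x hC k := Subtype.ext (by rw [hk, cI_coe])
        rw [this, trI_apply]
      exact ⟨trI (cI x hC) χ, h χ hχ _ hc, hc⟩
    · rintro ⟨_, hx, h⟩
      refine ⟨hx, fun θ hθ θ' hθ' => ?_⟩
      obtain ⟨χ', hχ', h1⟩ := (hst.2 ⟨hxH hx, h⟩).2 θ hθ
      have hC : H = cS x H := (cS_of_normalizer (hxH hx)).symm
      have : θ' = χ' := by
        apply Subtype.ext
        funext y
        obtain ⟨k, rfl⟩ := (cI x hC).surjective y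
        rw [hθ' k (cI x hC k) (cI_coe x hC k), h1 k (cI x hC k) (cI_coe x hC k)]
      rw [this]; exact hχ'
  intro χ hχ
  have h1 := height_bound hM hB hmx hχ
  rw [← hTS, ← hH, he, hc, hDd, ← pow_add] at h1
  have h2 : e * p ^ d < p ^ (n + 1 + d) := by
    rw [pow_add p (n + 1) d]
    exact Nat.mul_lt_mul_of_pos_right hn.2 (pow_pos hp.out.pos d)
  have h3 := (Nat.pow_lt_pow_iff_right hp.out.one_lt).1 (lt_of_le_of_lt h1 h2)
  omega

end Fin

end CfsgLib.Star
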