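import Mathlib
import Cfsg.Agent.EqBase
import Cfsg.Agent.LibStar40
import Cfsg.Agent.LibStar19
import Cfsg.Agent.LibCharBasic2

/-!
# Blocks of `G = D C(D)` with defect group `D` (helper18)
-/

set_option autoImplicit false
set_option linter.unusedSectionVars false
set_option linter.style.haveILetI false
set_option linter.unusedSimpArgs false
set_option linter.unusedVariables false

namespace CfsgLib.Star

open Cfsg CfsgLib.GalChar CfsgLib.GalField CfsgLib.BlockReg CfsgLib.BlockReg2 CfsgLib.LocR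
  CfsgLib.BrP CfsgLib.Car CfsgLib.BlockQP CfsgLib.BlockDefect
  CfsgLib.Points CfsgLib.PLocalInd CfsgLib.CharBasic CfsgLib.BlockCore CfsgLib.BlockSec
  CfsgLib.BlockR CfsgLib.BlockIdem CfsgLib.BlockOrth CfsgLib.CharIndA CfsgLib.CharNorm
open scoped ComplexConjugate Pointwise

universe u

section Grp

variable {G : Type u} [Group G] [Finite G] {p : ℕ} [hp : Fact p.Prime]

theorem normal_DC {D : Subgroup G} (hG : D ⊔ Subgroup.centralizer (D : Set G) = ⊤) :
    D.Normal := by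
  rw [← Subgroup.normalizer_eq_top_iff, eq_top_iff, ← hG]
  exact sup_le Subgroup.le_normalizer (centralizer_le_normalizer D)

theorem mem_DC {D : Subgroup G} (hG : D ⊔ Subgroup.centralizer (D : Set G) = ⊤) (g : G) :
    ∃ d ∈ D, ∃ c ∈ Subgroup.centralizer (D : Set G), g = d * c := by
  haveI := normal_DC hG
  have h1 : g ∈ D ⊔ Subgroup.centralizer (D : Set G) := by rw [hG]; exact Subgroup.mem_top g
  obtain ⟨d, hd, c, hc, h⟩ := Subgroup.mem_sup_of_normal_left.1 h1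
  exact ⟨d, hd, c, hc, h.symm⟩

theorem reg_DC {D : Subgroup G} (hD : IsPGroup p D)
    (hG : D ⊔ Subgroup.centralizer (D : Set G) = ⊤) {s : G} (hs : ¬ p ∣ orderOf s) :
    s ∈ Subgroup.centralizer (D : Set G) := by
  obtain ⟨d, hd, c, hc, rfl⟩ := mem_DC hG s
  obtain ⟨k, hk⟩ := (IsPGroup.iff_orderOf.1 hD) ⟨d, hd⟩
  have hk' : orderOf d = p ^ k := by rw [← hk, ← Subgroup.orderOf_coe]
  have hcom : Commute d c := Subgroup.mem_centralizer_iff.1 hc d hd
  have h1 : (d * c) ^ (p ^ k) = c ^ (p ^ k) := by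
    rw [hcom.mul_pow, ← hk', pow_orderOf_eq_one, one_mul]
  have hcop : Nat.Coprime (orderOf (d * c)) (p ^ k) :=
    ((Nat.Prime.coprime_iff_not_dvd hp.out).2 hs).symm.pow_right k
  have h2 : d * c ∈ Subgroup.zpowers ((d * c) ^ (p ^ k)) := by
    rw [← Subgroup.zpowers_le]
    apply le_of_eq
    symm
    apply Subgroup.eq_of_le_of_card_ge
    · rw [Subgroup.zpowers_le]
      exact Subgroup.npow_mem_zpowers _ _
    · rw [Nat.card_zpowers, Nat.card_zpowers, Nat.Coprime.orderOf_pow hcop]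
  rw [h1] at h2
  exact (Subgroup.zpowers_le.2 (Subgroup.pow_mem _ hc _)) h2

end Grp

section Main

variable {M : Ideal AlgInt} [hPr : M.IsPrime] {G : Type u} [Group G] [Fintype G]
variable {p : ℕ} [hp : Fact p.Prime] [hch : CharP (kM M) p]

theorem TS_DC {P : Subgroup G} {c : MonoidAlgebra (kM M) G} (hPc : BP p ⊤ P c)
    (hG : P ⊔ Subgroup.centralizer (P : Set G) = ⊤) : TS ⊤ P c = ⊤ := by
  have h1 : P ⊔ Subgroup.centralizer (P : Set G) ≤ TS ⊤ P c := by
    refine sup_le (le_TS hPc) ?_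
    have := CH_le_TS hPc
    rwa [CH_top] at this
  rw [hG] at h1
  exact eq_top_iff.2 h1

theorem Mv_DC {P : Subgroup G} {c : MonoidAlgebra (kM M) G} (hPc : BP p ⊤ P c)
    (hG : P ⊔ Subgroup.centralizer (P : Set G) = ⊤) {v x : G} {e : MonoidAlgebra (kM M) G} :
    Mv p P c v e x ↔ Mv p P c v e 1 := by
  have hT := TS_DC hPc hG
  have hall : ∀ y : G, cS y P = P ∧ cj y c = c := by
    intro y
    have hy : y ∈ TS ⊤ P c := by rw [hT]; exact Subgroup.mem_top y
    exact ⟨cS_of_normalizer hy.2.1, hy.2.2⟩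
  constructor
  · intro h
    have h1 := LEp.cj' h (Subgroup.mem_top x⁻¹)
    dsimp only at h1
    rw [cS_inv_cS, cj_inv_cj, (hall _).1, (hall _).2] at h1
    exact mv_one.2 h1
  · intro h
    have h1 := LEp.cj' (mv_one.1 h) (Subgroup.mem_top x)
    dsimp only at h1
    rw [(hall _).1, (hall _).2] at h1
    exact h1

theorem dv_DC (hM : IsPModular p M) {B : Set (IrrCharacter G)} (hB : IsPBlock M B)
    {P : Subgroup G} {c : MonoidAlgebra (kM M) G} (hmx : IsMx p ⊤ (JB M B) P c)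
    (hG : P ⊔ Subgroup.centralizer (P : Set G) = ⊤)
    {χ : IrrCharacter G} (hχ : χ ∈ B) {v s : G} (hv : v ∈ P) (hvs : pp p (v * s) = v) :
    dv M v (ev p P c v) (χ : G → ℂ) s = (χ : G → ℂ) (v * s) := by
  classical
  have hPc := hmx.1.1
  rw [← sum_dv (M := M) (irr_classFun χ.2) (pp_iff.1 hvs).2.1]
  rw [Finset.sum_eq_single (ev p P c v)]
  · intro e he hne
    rw [mem_bl] at he
    refine dv_not_mv hM hB hmx hχ he ?_ hvs
    rintro ⟨x, hx⟩
    exact hne (ev_unique hPc (mv_one.1 ((Mv_DC hPc hG).1 hx)))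
  · intro h
    exact absurd (mem_bl.2 (ev_blk hPc hv)) h

theorem AA_DC {P : Subgroup G} {c : MonoidAlgebra (kM M) G} (hPc : BP p ⊤ P c)
    (hG : P ⊔ Subgroup.centralizer (P : Set G) = ⊤) {v : G} (hv : v ∈ P) :
    AA p P c v (ev p P c v) = Finset.univ := by
  ext x
  rw [mem_AA]
  exact ⟨fun _ => Finset.mem_univ _, fun _ => (Mv_DC hPc hG).2 (ev_mv hPc hv)⟩

theorem GG_DC (hM : IsPModular p M) {B : Set (IrrCharacter G)} (hB : IsPBlock M B)
    {P : Subgroup G} [Fintype P] {c : MonoidAlgebra (kM M) G} (hmx : IsMx p ⊤ (JB M B) P c)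
    (hG : P ⊔ Subgroup.centralizer (P : Set G) = ⊤)
    {χ : IrrCharacter G} (hχ : χ ∈ B) (hker : ∀ y ∈ P, (χ : G → ℂ) y = (χ : G → ℂ) 1) (v : P) :
    GG p P c (χ : G → ℂ) (χ : G → ℂ) v = 1 := by
  classical
  have hPc := hmx.1.1
  have hval : ∀ v : P, GG p P c (χ : G → ℂ) (χ : G → ℂ) v =
      (Nat.card P : ℂ) * (∑ s : G, if ¬ p ∣ orderOf s then (χ : G → ℂ) s * conj ((χ : G → ℂ) s)
        else 0) / (Nat.card G : ℂ) := by
    intro v
    unfold GG
    rw [AA_DC hPc hG v.2, Finset.card_univ, ← Nat.card_eq_fintype_card]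
    congr 2
    unfold WW
    refine Finset.sum_congr rfl fun s _ => ?_
    by_cases hs : ¬ p ∣ orderOf s
    · have h1 : Commute (v : G) s := Subgroup.mem_centralizer_iff.1 (reg_DC hPc.pg hG hs) v v.2
      have h2 : pp p ((v : G) * s) = v := pp_mul (pel_of hPc.pg v.2) hs h1
      rw [if_pos h2, if_pos hs, dv_DC hM hB hmx hG hχ v.2 h2,
        (CfsgLib.CharBasic.char_mul_of_ker (irr_isCharacter χ.2) (hker v v.2) s).1]
    · rw [if_neg hs, if_neg (fun h => hs (pp_iff.1 h).2.2)]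
  have h1 := sum_GG hM hB hmx hχ
  have h2 : ∀ w : P, GG p P c (χ : G → ℂ) (χ : G → ℂ) w = GG p P c (χ : G → ℂ) (χ : G → ℂ) v := by
    intro w; rw [hval w, hval v]
  rw [Finset.sum_congr rfl fun w _ => h2 w, Finset.sum_const, Finset.card_univ, nsmul_eq_mul,
    ← Nat.card_eq_fintype_card] at h1
  have hP : (Nat.card P : ℂ) ≠ 0 := by exact_mod_cast Nat.card_pos.ne'
  exact mul_left_cancel₀ hP (by rw [h1, mul_one])

theorem inn_DC {P : Subgroup G} {c : MonoidAlgebra (kM M) G}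
    (hG : P ⊔ Subgroup.centralizer (P : Set G) = ⊤) : Inn' p ⊤ P c := by
  intro Q hQ g _ _
  obtain ⟨d, hd, x, hx, rfl⟩ := mem_DC hG g
  refine ⟨d, hd, fun y hy => ?_⟩
  have h1 : y * x = x * y := Subgroup.mem_centralizer_iff.1 hx y (hQ hy)
  calc d * x * y * (d * x)⁻¹ = d * (x * y) * x⁻¹ * d⁻¹ := by group
    _ = d * (y * x) * x⁻¹ * d⁻¹ := by rw [h1]
    _ = _ := by group

theorem height_DC (hM : IsPModular p M) {B : Set (IrrCharacter G)} (hB : IsPBlock M B)
    {P : Subgroup G} [Fintype P] {c : MonoidAlgebra (kM M) G} (hmx : IsMx p ⊤ (JB M B) P c)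
    {χ : IrrCharacter G} (hχ : χ ∈ B)
    (h1 : GG p P c (χ : G → ℂ) (χ : G → ℂ) 1 = 1) : blockHeight p B (χ : G → ℂ) = 0 := by
  classical
  have h2 := mz_ring hM hB hmx hχ 1
  have h3 : mz p P c (χ : G → ℂ) 1 = 1 := by
    unfold mz
    rw [Finset.sum_eq_single 1]
    · rw [h1, show eo p P c 1 ((1 : P) : G) = 1 from eo_self hmx.1.1 P.one_mem, mul_one]
    · intro v _ hv
      rw [eo_not, zero_mul]
      rintro ⟨x, _, hx⟩
      apply hv
      apply Subtype.ext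
      rw [← hx]; simp
    · intro h; exact absurd (Finset.mem_univ _) h
  rw [h3] at h2
  by_contra hne
  have hq : ((p ^ blockHeight p B (χ : G → ℂ) : ℕ) : ℂ) ≠ 0 := by
    exact_mod_cast pow_ne_zero _ hp.out.ne_zero
  have h4 : MemLocalIdeal M ((p ^ blockHeight p B (χ : G → ℂ) : ℕ) : ℂ) :=
    (ideal_nat_iff hM).2 (dvd_pow_self p hne)
  have h5 := ideal_mul_right hPr h4 h2
  rw [mul_one_div_cancel hq] at h5
  have h6 : MemLocalIdeal M ((1 : ℕ) : ℂ) := by simpa using h5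
  exact hp.out.one_lt.ne' (Nat.dvd_one.1 ((ideal_nat_iff hM).1 h6))

end Main

section Fin

variable {M : Ideal AlgInt} {G : Type u} [Group G] [Fintype G] {p : ℕ} [hp : Fact p.Prime]

theorem s4714 (hM : IsPModular p M) (D : Subgroup G) (hD : IsPGroup p D)
    (hG : D ⊔ Subgroup.centralizer (D : Set G) = ⊤) (B : Set (IrrCharacter G))
    (hB : IsPBlock M B) (hBD : IsDefectGroup p M B D) (χ : IrrCharacter G) (hχ : χ ∈ B)
    (hχD : ∀ y ∈ D, (χ : G → ℂ) y = (χ : G → ℂ) 1) :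
    (∀ θ : IrrCharacter G, θ ∈ B ↔ ∃ ζ : IrrCharacter D,
      (∀ (y : D) (x : G), ¬ p ∣ orderOf x → Commute (y : G) x →
        (θ : G → ℂ) ((y : G) * x) = (ζ : D → ℂ) y * (χ : G → ℂ) x) ∧
      (∀ z : G, (∀ y : G, IsPPart p z y → y ∉ D) → (θ : G → ℂ) z = 0)) ∧
    ∀ ζ : IrrCharacter D, ∃ θ ∈ B, (∀ (y : D) (x : G), ¬ p ∣ orderOf x → Commute (y : G) x →
        (θ : G → ℂ) ((y : G) * x) = (ζ : D → ℂ) y * (χ : G → ℂ) x) ∧
      (∀ z : G, (∀ y : G, IsPPart p z y → y ∉ D) → (θ : G → ℂ) z = 0) := by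
  classical
  haveI hPr : M.IsPrime := isPrime_of_modular hM
  haveI : M.IsMaximal := hM.2.1
  haveI := charP_kM hM
  haveI := Fintype.ofFinite D
  haveI := normal_DC hG
  have hdef : IsDef p ⊤ (JB M B) D := (g_def hM hB).1 hBD
  obtain ⟨c, hc⟩ := exists_of_br_ne (g_blk hB) hdef.le hdef.pg hdef.br
  have hmx : IsMx p ⊤ (JB M B) D c := isMx_of_isDef (g_blk hB) hdef hc
  have hPc := hmx.1.1
  have hinn : Inn' p ⊤ D c := inn_DC hG
  have hGG := GG_DC hM hB hmx hG hχ hχD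
  have h0' : blockHeight p B (χ : G → ℂ) = 0 := height_DC hM hB hmx hχ (hGG 1)
  have hst : ∀ η : IrrCharacter D, FSt p D c (ext0 D (η : D → ℂ)) := fun η =>
    FSt_of_inn hPc hinn (irr_classFun η.2)
  have hin : ∀ η η' : IrrCharacter D,
      classInner (star p M (HF p D c (ext0 D (η : D → ℂ))) (χ : G → ℂ))
        (star p M (HF p D c (ext0 D (η' : D → ℂ))) (χ : G → ℂ)) =
      classInner (η : D → ℂ) (η' : D → ℂ) := by
    intro η η'
    rw [inner_star_GG hM hB hmx (hst η) (hst η') hχ (irr_classFun χ.2)]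
    unfold classInner
    congr 1
    refine Finset.sum_congr rfl fun v _ => ?_
    rw [hGG v, mul_one, ext0_coe, ext0_coe]
  have hex : ∀ η : IrrCharacter D, ∃ ψ : IrrCharacter G, ψ ∈ B ∧
      (ψ : G → ℂ) = star p M (HF p D c (ext0 D (η : D → ℂ))) (χ : G → ℂ) := by
    intro η
    obtain ⟨n, hn0, hn⟩ := irr_one_nat η.2
    refine star_HF_irr hM hB hmx (gen_of_irr η.2) (hst η) hχ ?_ ?_ ?_
    · rw [hin, (irr_iff_norm_one.mp η.2).2]
    · rw [hn]; simpa using hn0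
    · rw [hn]; simp
  choose Φ hΦB hΦ using hex
  have hsurj : ∀ ψ ∈ B, ∃ η, Φ η = ψ := by
    intro ψ hψ
    by_contra hcon
    push Not at hcon
    have hcl : IsClassFunction D (GG p D c (χ : G → ℂ) (ψ : G → ℂ)) :=
      GG_classFun hM hPc (irr_classFun χ.2) (irr_classFun ψ.2)
    have hz : ∀ η : IrrCharacter D, ∑ v : D, (η : D → ℂ) v *
        GG p D c (χ : G → ℂ) (ψ : G → ℂ) v = 0 := by
      intro η
      have h1 := inner_star_GG hM hB hmx (hst η) (FSt_const D c 1) hχ (irr_classFun ψ.2)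
      rw [star_HF_one hM hB hmx hψ, ← hΦ, irr_inner (Φ η).2 ψ.2,
        if_neg (fun h => hcon η (Subtype.ext h))] at h1
      have hP' : (Nat.card D : ℂ) ≠ 0 := by exact_mod_cast Nat.card_pos.ne'
      have h2 := congrArg (fun z => (Nat.card D : ℂ) * z) h1
      simp only [mul_zero] at h2
      rw [mul_inv_cancel_left₀ hP'] at h2
      rw [h2]
      refine Finset.sum_congr rfl fun v _ => ?_
      rw [ext0_coe, map_one, mul_one]
    have hzero : ∀ v : D, GG p D c (χ : G → ℂ) (ψ : G → ℂ) v = 0 := by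
      intro v
      rw [classFun_expand_apply hcl v]
      refine Finset.sum_eq_zero fun θ _ => ?_
      have h3 : classInner (GG p D c (χ : G → ℂ) (ψ : G → ℂ)) (θ : D → ℂ) = 0 := by
        have h4 := hz ⟨_, isIrrCharacter_conj θ.2⟩
        unfold classInner
        rw [show (∑ g : D, GG p D c (χ : G → ℂ) (ψ : G → ℂ) g * conj ((θ : D → ℂ) g)) = 0 from ?_,
          mul_zero]
        rw [← h4]
        refine Finset.sum_congr rfl fun g _ => ?_
        exact mul_comm _ _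
      rw [h3, zero_mul]
    have h5 := hzero 1
    rw [GG_one hM hB hmx hχ hψ] at h5
    exact mm_ne_zero hM hB hχ h0' hψ (by exact_mod_cast h5)
  -- values
  have hv1 : ∀ (ζ : IrrCharacter D) (y : D) (x : G), ¬ p ∣ orderOf x → Commute (y : G) x →
      (Φ ζ : G → ℂ) ((y : G) * x) = (ζ : D → ℂ) y * (χ : G → ℂ) x := by
    intro ζ y x hx hyx
    have h1 : pp p ((y : G) * x) = y := pp_mul (pel_of hD y.2) hx hyx
    rw [hΦ, star_us (pel_of hD y.2) hx hyx, Finset.sum_eq_single (ev p D c y)]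
    · have h2 := dv_DC hM hB hmx hG hχ y.2 h1
      unfold dv at h2
      rw [h2, HF_of (hst ζ) (ev_mv hPc y.2), one_mul, inv_one, mul_one, ext0_coe,
        (CfsgLib.CharBasic.char_mul_of_ker (irr_isCharacter χ.2) (hχD y y.2) x).1]
    · intro e he hne
      rw [mem_bl] at he
      rw [HF_not, zero_mul]
      rintro ⟨w, hw⟩
      exact hne (ev_unique hPc (mv_one.1 ((Mv_DC hPc hG).1 hw)))
    · intro h
      exact absurd (mem_bl.2 (ev_blk hPc y.2)) h
  have hv2 : ∀ (ζ : IrrCharacter D) (z : G), (∀ y : G, IsPPart p z y → y ∉ D) →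
      (Φ ζ : G → ℂ) z = 0 := by
    intro ζ z hz
    obtain ⟨u, s, rfl, hus, hu, hs⟩ := exists_us (p := p) z
    have huD : u ∉ D := hz u ⟨s, rfl, hus, hu, hs⟩
    rw [hΦ, star_us hu hs hus]
    refine Finset.sum_eq_zero fun e _ => ?_
    rw [HF_not, zero_mul]
    rintro ⟨w, hw⟩
    apply huD
    have h1 := hw.mem
    have h2 := (inferInstance : D.Normal).conj_mem _ h1 w⁻¹
    have h3 : w⁻¹ * (w * u * w⁻¹) * w⁻¹⁻¹ = u := by group
    rwa [h3] at h2
  refine ⟨fun θ => ⟨fun hθ => ?_, ?_⟩, fun ζ => ⟨Φ ζ, hΦB ζ, hv1 ζ, hv2 ζ⟩⟩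
  · obtain ⟨ζ, rfl⟩ := hsurj θ hθ
    exact ⟨ζ, hv1 ζ, hv2 ζ⟩
  · rintro ⟨ζ, h1, h2⟩
    have h3 : θ = Φ ζ := by
      apply Subtype.ext
      funext z
      by_cases hz : ∀ y : G, IsPPart p z y → y ∉ D
      · rw [h2 z hz, hv2 ζ z hz]
      · push Not at hz
        obtain ⟨y, ⟨x, hyx, hcom, hy, hx⟩, hyD⟩ := hz
        rw [← hyx, h1 ⟨y, hyD⟩ x hx hcom, hv1 ζ ⟨y, hyD⟩ x hx hcom]
    rw [h3]; exact hΦB ζ

end Fin

end CfsgLib.Star
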