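import Mathlib
import Cfsg.Agent.EqBase
import Cfsg.Agent.LibStar37

/-!
# Star construction, XLII: the number of points of a block is at most its rank (helper18)
-/

set_option autoImplicit false
set_option linter.unusedSectionVars false
set_option linter.style.haveILetI false
set_option linter.unusedSimpArgs false
set_option linter.unusedVariables false

namespace CfsgLib.Star

open Cfsg CfsgLib.GalChar CfsgLib.GalField CfsgLib.BlockReg CfsgLib.BlockReg2 CfsgLib.LocR
  CfsgLib.BrP CfsgLib.Car CfsgLib.BlockQP CfsgLib.BlockDefect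
  CfsgLib.Points CfsgLib.PLocalInd CfsgLib.CharBasic CfsgLib.BlockCore CfsgLib.BlockSec
  CfsgLib.BlockR CfsgLib.BlockIdem CfsgLib.BlockOrth CfsgLib.CharIndA CfsgLib.CharNorm
open scoped ComplexConjugate Pointwise

universe u

variable {M : Ideal AlgInt} [hPr : M.IsPrime] {G : Type u} [Group G] [Fintype G]
variable {p : ℕ} [hp : Fact p.Prime] [hch : CharP (kM M) p]

/-- trace functions of a block are combinations of the reductions of its characters -/
theorem trace_span (hM : IsPModular p M) {B : Set (IrrCharacter G)} (hB : IsPBlock M B)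
    {D : Type*} [Fintype D] [DecidableEq D]
    (ρ : MonoidAlgebra (kM M) G →ₐ[kM M] Matrix D D (kM M)) (hρ : ρ (JB M B) = 1) :
    ∃ a : IrrCharacter G → kM M, (∀ χ, χ ∉ B → a χ = 0) ∧ ∀ x : G,
      Matrix.trace (ρ (sg (kM M) x)) = ∑ χ : IrrCharacter G, a χ * rd M ((χ : G → ℂ) x) := by
  classical
  set f : G → kM M := fun g => Matrix.trace (ρ (sg (kM M) g)) with hf
  have hfc : ∀ g h, f (h * g * h⁻¹) = f g := by
    intro g h
    show Matrix.trace (ρ (sg (kM M) (h * g * h⁻¹))) = _
    rw [← sg_mul, map_mul, Matrix.trace_mul_comm, ← map_mul, sg_mul]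
    congr 3
    group
  choose fh hfh1 hfh2 using fun c : kM M => rd_surj (M := M) c
  have hcl : IsClassFunction G (fun g => fh (f g)) := fun g h => by
    show fh (f (h * g * h⁻¹)) = fh (f g)
    rw [hfc]
  have hcomb : RComb M (fun g => fh (f g)) := by
    apply rcomb_of_secConst (p := p) hM hcl
    · intro x; exact hfh1 _
    · intro x u hc hx hu
      show fh (f (u * x)) = fh (f x)
      rw [show f (u * x) = f x from trace_sec ρ hc hu]
  refine ⟨fun χ => rd M (ind B χ * classInner (fun g => fh (f g)) (χ : G → ℂ)),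
    fun χ hχ => by
      show rd M (ind B χ * _) = 0
      rw [ind_not hχ, zero_mul, rd_zero], fun x => ?_⟩
  have hcR : ∀ χ : IrrCharacter G,
      MemLocalRing M (ind B χ * classInner (fun g => fh (f g)) (χ : G → ℂ)) := by
    intro χ
    refine memR_mul ?_ (hcomb.2 χ)
    by_cases h : χ ∈ B
    · rw [ind_of h]; exact memR_one
    · rw [ind_not h]; exact memR_zero
  have e0 : ∑ χ : IrrCharacter G, rd M (ind B χ * classInner (fun g => fh (f g)) (χ : G → ℂ)) *
      rd M ((χ : G → ℂ) x) = rd M (∑ χ : IrrCharacter G,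
        ind B χ * classInner (fun g => fh (f g)) (χ : G → ℂ) * (χ : G → ℂ) x) := by
    rw [rd_sum]
    · refine Finset.sum_congr rfl fun χ _ => ?_
      rw [rd_mul (hcR χ) (irr_ring hPr χ x)]
    · intro χ _
      exact memR_mul (hcR χ) (irr_ring hPr χ x)
  have e1 : ∑ χ : IrrCharacter G, ind B χ * classInner (fun g => fh (f g)) (χ : G → ℂ) *
      (χ : G → ℂ) x = ∑ w : G, blockCoeff B w * fh (f (w * x)) := by
    rw [sum_coeff_mul B hcl x, blockPart_expand]
    refine Finset.sum_congr rfl fun χ _ => ?_
    ring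
  have e2 : f x = ∑ w : G, (JB M B).coeff w * f (w * x) := by
    have h1 : f x = Matrix.trace (ρ (JB M B * sg (kM M) x)) := by
      rw [map_mul, hρ, one_mul]
    rw [h1]
    conv_lhs => rw [eq_sum_sg (JB M B)]
    rw [Finset.sum_mul, map_sum, Matrix.trace_sum]
    refine Finset.sum_congr rfl fun w _ => ?_
    rw [smul_mul_assoc, sg_mul, map_smul, Matrix.trace_smul, smul_eq_mul]
  show f x = _
  rw [e0, e1, e2, rd_sum]
  · refine Finset.sum_congr rfl fun w _ => ?_
    rw [rd_mul (blockCoeff_ring hPr hB w) (hfh1 _), hfh2]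
    congr 1
    have := bk_coeff (M := M) (ι := MonoidHom.id G) id_inj B w
    exact this
  · intro w _
    exact memR_mul (blockCoeff_ring hPr hB w) (hfh1 _)

/-- independent combinations of the reductions of the characters of `B` -/
theorem card_le_blockRank {B : Set (IrrCharacter G)} {n : ℕ} (f : Fin n → G → kM M)
    (a : Fin n → IrrCharacter G → kM M) (ha : ∀ i χ, χ ∉ B → a i χ = 0)
    (hf : ∀ i x, f i x = ∑ χ : IrrCharacter G, a i χ * rd M ((χ : G → ℂ) x))
    (hli : LinearIndependent (kM M) (fun i => fun x : {x : G // ¬ p ∣ orderOf x} => f i x)) :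
    n ≤ blockRank p B := by
  classical
  let v : IrrCharacter G → ({x : G // ¬ p ∣ orderOf x} → kM M) :=
    fun χ x => rd M ((χ : G → ℂ) x)
  obtain ⟨b, hbv, hspan, hbli⟩ := exists_linearIndependent (kM M) (v '' B)
  haveI : Fintype b := ((Set.toFinite B).image v |>.subset hbv).fintype
  have h1 : n ≤ Fintype.card b := by
    have h2 : ∀ i, (fun x : {x : G // ¬ p ∣ orderOf x} => f i x) ∈
        Submodule.span (kM M) b := by
      intro i
      rw [hspan]
      have e1 : (fun x : {x : G // ¬ p ∣ orderOf x} => f i x) =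
          ∑ χ : IrrCharacter G, a i χ • v χ := by
        funext x
        rw [hf, Finset.sum_apply]
        rfl
      rw [e1]
      refine Submodule.sum_mem _ fun χ _ => ?_
      by_cases hχ : χ ∈ B
      · exact Submodule.smul_mem _ _ (Submodule.subset_span ⟨χ, hχ, rfl⟩)
      · rw [ha i χ hχ, zero_smul]; exact Submodule.zero_mem _
    have h3 : Submodule.span (kM M)
        (Set.range (fun i => fun x : {x : G // ¬ p ∣ orderOf x} => f i x)) ≤
        Submodule.span (kM M) b := by
      rw [Submodule.span_le]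
      rintro _ ⟨i, rfl⟩
      exact h2 i
    have h4 := finrank_span_eq_card hli
    rw [Fintype.card_fin] at h4
    have h5 := Submodule.finrank_mono h3
    rw [h4] at h5
    refine h5.trans ?_
    have h6 := finrank_span_eq_card hbli
    rw [Subtype.range_coe] at h6
    exact h6.le
  refine h1.trans ?_
  choose c hcB hcv using fun y : b => hbv y.2
  let w : b → {x : G // ¬ p ∣ orderOf x} → LocR.subring M :=
    fun y x => ⟨(c y : G → ℂ) x, irr_ring hPr (c y) x⟩
  have h2 : LinearIndependent (kM M) (fun y => fun x =>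
      IsLocalRing.residue (LocR.subring M) (w y x)) := by
    have e1 : (fun y : b => fun x => IsLocalRing.residue (LocR.subring M) (w y x)) =
        (fun y : b => (y : {x : G // ¬ p ∣ orderOf x} → kM M)) := by
      funext y
      rw [← hcv y]
      funext x
      exact (rd_of (irr_ring hPr (c y) x)).symm
    rw [e1]
    exact hbli
  have h3 := li_lift (LocR.subring M).subtype w h2
  have h4 : LinearIndependent ℂ (fun y : b => pRegularPart p (c y : G → ℂ)) := by
    let res : (G → ℂ) →ₗ[ℂ] ({x : G // ¬ p ∣ orderOf x} → ℂ) :=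
      { toFun := fun f x => f x
        map_add' := fun _ _ => rfl
        map_smul' := fun _ _ => rfl }
    apply LinearIndependent.of_comp res
    have e1 : (res ∘ fun y : b => pRegularPart p (c y : G → ℂ)) =
        fun y => fun x => (LocR.subring M).subtype (w y x) := by
      funext y x
      show pRegularPart p (c y : G → ℂ) x = (c y : G → ℂ) x
      unfold pRegularPart
      exact if_pos x.2
    rw [e1]
    exact h3
  have h5 := finrank_span_eq_card h4
  rw [← h5]
  unfold blockRank
  apply Submodule.finrank_mono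
  rw [Submodule.span_le]
  rintro _ ⟨y, rfl⟩
  exact Submodule.subset_span ⟨c y, hcB y, rfl⟩

/-- the number of points of a block is at most its rank -/
theorem points_le (hM : IsPModular p M) [M.IsMaximal] {B : Set (IrrCharacter G)}
    (hB : IsPBlock M B) {L : Finset (MonoidAlgebra (kM M) G)}
    (hL : Dec 1 L) {n : ℕ} (j : Fin n → MonoidAlgebra (kM M) G) (hj : ∀ i, j i ∈ L)
    (hjb : ∀ i, j i * JB M B = j i) (hne : ∀ i i', i ≠ i' → ¬ Iso (j i) (j i')) :
    n ≤ blockRank p B := by
  classical
  have hblk := g_blk hB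
  have hbc : ∀ a, JB M B * a = a * JB M B := fun a =>
    comm_of_fx_supp (H := ⊤) hblk.zh.2 (fun g hg => absurd (Subgroup.mem_top g) hg)
  have key : ∀ i, ∃ (f : G → kM M) (a : IrrCharacter G → kM M), (∀ χ, χ ∉ B → a χ = 0) ∧
      (∀ x, f x = ∑ χ : IrrCharacter G, a χ * rd M ((χ : G → ℂ) x)) ∧
      ∀ i', ∑ x : G, (j i').coeff x * f ((pp p x)⁻¹ * x) = if i = i' then 1 else 0 := by
    intro i
    obtain ⟨ρ, hρ1, hρ2⟩ := exists_rep (kM M) hL (hj i) (D := L.filter fun q => Iso (j i) q)
      (fun q => by rw [Finset.mem_filter])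
    obtain ⟨a, ha1, ha2⟩ := trace_span hM hB ρ (hρ2 _ hbc hblk.idem (hjb i))
    refine ⟨fun x => Matrix.trace (ρ (sg (kM M) x)), a, ha1, ha2, fun i' => ?_⟩
    have h1 := hρ1 (j i') (hj i')
    have h2 : (if Iso (j i) (j i') then (1 : kM M) else 0) = if i = i' then 1 else 0 := by
      by_cases h : i = i'
      · subst h
        rw [if_pos rfl, if_pos (Iso.refl (hL.prim _ (hj i)).idem)]
      · rw [if_neg h, if_neg (hne i i' h)]
    rw [← h2, ← h1]
    conv_rhs => rw [eq_sum_sg (j i')]
    rw [map_sum, Matrix.trace_sum]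
    refine Finset.sum_congr rfl fun x _ => ?_
    rw [map_smul, Matrix.trace_smul, smul_eq_mul]
    congr 1
    obtain ⟨s, hs1, hs2, hs3, hs4⟩ := pp_spec (p := p) x
    have e1 : (pp p x)⁻¹ * x = s := by rw [inv_mul_eq_iff_eq_mul]; exact hs1.symm
    show Matrix.trace (ρ (sg (kM M) ((pp p x)⁻¹ * x))) = _
    rw [e1]
    have e2 := trace_sec (p := p) ρ hs2 hs3
    rw [hs1] at e2
    exact e2.symm
  choose f a ha1 ha2 hf using key
  apply card_le_blockRank (p := p) f a ha1 ha2
  rw [Fintype.linearIndependent_iff]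
  intro c hc i₀
  have h1 : ∀ x : G, ¬ p ∣ orderOf x → ∑ i, c i * f i x = 0 := by
    intro x hx
    have := congrFun hc ⟨x, hx⟩
    rw [Finset.sum_apply] at this
    exact this
  have h2 : ∑ i, c i * (if i = i₀ then 1 else 0) = 0 := by
    calc ∑ i, c i * (if i = i₀ then 1 else 0) =
        ∑ i, c i * ∑ x : G, (j i₀).coeff x * f i ((pp p x)⁻¹ * x) := by
          refine Finset.sum_congr rfl fun i _ => ?_
          rw [hf i i₀]
      _ = ∑ x : G, (j i₀).coeff x * ∑ i, c i * f i ((pp p x)⁻¹ * x) := by
          simp only [Finset.mul_sum]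
          rw [Finset.sum_comm]
          refine Finset.sum_congr rfl fun x _ => Finset.sum_congr rfl fun i _ => ?_
          ring
      _ = 0 := by
          refine Finset.sum_eq_zero fun x _ => ?_
          obtain ⟨s, hs1, hs2, hs3, hs4⟩ := pp_spec (p := p) x
          have e1 : (pp p x)⁻¹ * x = s := by rw [inv_mul_eq_iff_eq_mul]; exact hs1.symm
          rw [e1, h1 s hs4, mul_zero]
  simpa using h2

end CfsgLib.Star
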