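import Mathlib
import Cfsg.Agent.EqBase
import Cfsg.Agent.LibStar42
import Cfsg.Agent.LibStar41
import Cfsg.Agent.LibFgElt
import Cfsg.Agent.LibMonomial

/-!
# Star construction, LXXV: multiplicities of linear characters via idempotents (helper18)
-/

set_option autoImplicit false
set_option linter.unusedSectionVars false
set_option linter.style.haveILetI false
set_option linter.unusedSimpArgs false
set_option linter.unusedVariables false

namespace CfsgLib.Star

open Cfsg CfsgLib.GalChar CfsgLib.GalField CfsgLib.BlockReg CfsgLib.BlockReg2 CfsgLib.LocR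
  CfsgLib.BrP CfsgLib.Car CfsgLib.BlockQP CfsgLib.BlockDefect
  CfsgLib.Points CfsgLib.PLocalInd CfsgLib.CharBasic CfsgLib.BlockCore CfsgLib.BlockSec
  CfsgLib.BlockR CfsgLib.BlockIdem CfsgLib.BlockOrth CfsgLib.CharIndA CfsgLib.CharNorm
open scoped ComplexConjugate Pointwise

universe u v

section Nil

variable {M : Ideal AlgInt} [hPr : M.IsPrime] {G : Type u} [Group G] [Fintype G]
variable {p : ℕ} [hp : Fact p.Prime]

/-- the `p`-part and the `p'`-part of a nilpotent subgroup -/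
theorem nil_parts {E : Subgroup G} (hE : Group.IsNilpotent E) : ∃ P Q : Subgroup G,
    P ≤ E ∧ Q ≤ E ∧ (∀ u ∈ P, ∀ y ∈ Q, u * y = y * u) ∧
    (∀ u ∈ P, ∃ k : ℕ, orderOf u = p ^ k) ∧ (∀ y ∈ Q, ¬ p ∣ orderOf y) ∧ ¬ p ∣ Nat.card Q ∧
    (∀ x ∈ E, (∃ k : ℕ, orderOf x = p ^ k) → x ∈ P) ∧
    (∀ x ∈ E, ¬ p ∣ orderOf x → x ∈ Q) := by
  have hpp : p.Prime := hp.out
  refine ⟨piCoreOf {p} E, piCoreOf {p}ᶜ E, CfsgLib.BGPi.piCoreOf_le _ _,
    CfsgLib.BGPi.piCoreOf_le _ _, ?_, ?_, ?_, ?_, ?_, ?_⟩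
  · intro u hu y hy
    have h1 := CfsgLib.BGPi.nilpotent_commute (π := {p}) hE
      (CfsgLib.BGPi.piCoreOf_le {p} E) (CfsgLib.BGPi.piCoreOf_le {p}ᶜ E)
      (CfsgLib.BGPi.isPi_piCoreOf _ _) (CfsgLib.BGPi.isPi_piCoreOf _ _)
    exact (Subgroup.mem_centralizer_iff.1 (h1 hu) y hy).symm
  · intro u hu
    have h1 := (CfsgLib.BGPi.isPGroup_iff_isPi hpp).2 (CfsgLib.BGPi.isPi_piCoreOf {p} E)
    obtain ⟨k, hk⟩ := IsPGroup.iff_orderOf.1 h1 ⟨u, hu⟩
    exact ⟨k, by rw [← hk, Subgroup.orderOf_mk]⟩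
  · intro y hy h
    have h1 := CfsgLib.BGPi.isPi_piCoreOf {p}ᶜ E p hpp (h.trans (Subgroup.orderOf_dvd_natCard _ hy))
    exact h1 rfl
  · intro h
    exact (CfsgLib.BGPi.isPi_piCoreOf {p}ᶜ E p hpp h) rfl
  · intro x hx ⟨k, hk⟩
    have h1 := CfsgLib.BGPi.nilpotent_le_piCoreOf (π := {p}) hE (H := Subgroup.zpowers x)
      (by rw [Subgroup.zpowers_le]; exact hx) (by
        intro q hq hd
        rw [Nat.card_zpowers, hk] at hd
        exact (Nat.prime_dvd_prime_iff_eq hq hpp).1 (hq.dvd_of_dvd_pow hd))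
    exact h1 (Subgroup.mem_zpowers x)
  · intro x hx hpx
    have h1 := CfsgLib.BGPi.nilpotent_le_piCoreOf (π := {p}ᶜ) hE (H := Subgroup.zpowers x)
      (by rw [Subgroup.zpowers_le]; exact hx) (by
        intro q hq hd
        rw [Nat.card_zpowers] at hd
        intro h2
        have h3 : q = p := h2
        rw [h3] at hd
        exact hpx hd)
    exact h1 (Subgroup.mem_zpowers x)

/-- sums over a nilpotent subgroup -/
theorem nil_sum {E P Q : Subgroup G} [Fintype E] [Fintype P] [Fintype Q]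
    (hPE : P ≤ E) (hQE : Q ≤ E) (hcom : ∀ u ∈ P, ∀ y ∈ Q, u * y = y * u)
    (hP : ∀ u ∈ P, ∃ k : ℕ, orderOf u = p ^ k) (hQ : ∀ y ∈ Q, ¬ p ∣ orderOf y)
    (hEP : ∀ x ∈ E, (∃ k : ℕ, orderOf x = p ^ k) → x ∈ P)
    (hEQ : ∀ x ∈ E, ¬ p ∣ orderOf x → x ∈ Q) (f : G → ℂ) :
    ∑ x : E, f x = ∑ u : P, ∑ y : Q, f ((u : G) * y) := by
  rw [← Fintype.sum_prod_type']
  symm
  refine Fintype.sum_bijective (fun z : P × Q =>
    (⟨(z.1 : G) * z.2, E.mul_mem (hPE z.1.2) (hQE z.2.2)⟩ : E)) ⟨?_, ?_⟩ _ _ (fun z => rfl)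
  · rintro ⟨u, y⟩ ⟨u', y'⟩ h
    have h1 : (u : G) * y = u' * y' := congrArg Subtype.val h
    have h2 : (u : G) = u' := by
      rw [← pp_mul (p := p) (hP u u.2) (hQ y y.2) (hcom u u.2 y y.2), h1,
        pp_mul (p := p) (hP u' u'.2) (hQ y' y'.2) (hcom u' u'.2 y' y'.2)]
    rw [h2] at h1
    exact Prod.ext (Subtype.ext h2) (Subtype.ext (mul_left_cancel h1))
  · intro x
    obtain ⟨u, s, h1, h2, ⟨k, h3⟩, h4⟩ := exists_us (p := p) x
    refine ⟨(⟨u, hEP u u.2 ⟨k, by rw [Subgroup.orderOf_coe, h3]⟩⟩,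
      ⟨s, hEQ s s.2 (by rw [Subgroup.orderOf_coe]; exact h4)⟩), ?_⟩
    apply Subtype.ext
    show (u : G) * s = x
    rw [← h1]; rfl

/-- the extension of a class function, constant on `p`-sections -/
noncomputable def hat (p : ℕ) [Fact p.Prime] (F : G → ℂ) (g : G) : ℂ := F ((pp p g)⁻¹ * g)

theorem hat_mul (F : G → ℂ) {u s : G} (hu : ∃ k : ℕ, orderOf u = p ^ k) (hs : ¬ p ∣ orderOf s)
    (h : u * s = s * u) : hat p F (u * s) = F s := by
  unfold hat
  rw [pp_mul hu hs h, inv_mul_cancel_left]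

theorem hat_cf {F : G → ℂ} (hF : IsClassFunction G F) : IsClassFunction G (hat p F) := by
  intro g h
  unfold hat
  rw [pp_conj]
  have e1 : (h * pp p g * h⁻¹)⁻¹ * (h * g * h⁻¹) = h * ((pp p g)⁻¹ * g) * h⁻¹ := by group
  rw [e1, hF]

theorem hat_reg (F : G → ℂ) {s : G} (hs : ¬ p ∣ orderOf s) : hat p F s = F s := by
  have h1 := hat_mul (p := p) F (u := 1) (s := s) ⟨0, by rw [orderOf_one, pow_zero]⟩ hs (by simp)
  rw [one_mul] at h1
  exact h1

/-- the idempotent of a linear character -/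
theorem idem_lin (hM : IsPModular p M) {E : Subgroup G} [Fintype E] (hE : Group.IsNilpotent E)
    (l : E →* ℂˣ) : ∃ q : RG M G, q * q = q ∧ ∀ F : G → ℂ,
      (Nat.card E : ℂ)⁻¹ * ∑ x : E, hat p F x * conj ((l x : ℂˣ) : ℂ) =
        ∑ w : G, (q.coeff w : ℂ) * F w := by
  classical
  obtain ⟨P, Q, hPE, hQE, hcom, hP, hQ, hQc, hEP, hEQ⟩ := nil_parts (p := p) hE
  haveI := Fintype.ofFinite P
  haveI := Fintype.ofFinite Q
  -- the extension of `l`
  let l' : G → ℂ := fun w => if h : w ∈ E then conj ((l ⟨w, h⟩ : ℂˣ) : ℂ) else 0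
  have hl' : ∀ x : E, l' x = conj ((l x : ℂˣ) : ℂ) := fun x => by
    show (if h : (x : G) ∈ E then conj ((l ⟨x, h⟩ : ℂˣ) : ℂ) else 0) = _
    rw [dif_pos x.2]
  have hl'm : ∀ w ∈ E, ∀ w' ∈ E, l' (w * w') = l' w * l' w' := by
    intro w hw w' hw'
    have e1 := hl' ⟨w, hw⟩
    have e2 := hl' ⟨w', hw'⟩
    have e3 := hl' (⟨w, hw⟩ * ⟨w', hw'⟩)
    rw [map_mul, Units.val_mul, map_mul, ← e1, ← e2] at e3
    exact e3
  have hcardE : (Nat.card E : ℂ) = (Nat.card P : ℂ) * Nat.card Q := by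
    have h1 := nil_sum hPE hQE hcom hP hQ hEP hEQ (fun _ => (1 : ℂ))
    simp only [Finset.sum_const, Finset.card_univ, nsmul_eq_mul, mul_one,
      ← Nat.card_eq_fintype_card] at h1
    exact h1
  have hsum : ∀ F : G → ℂ, ∑ x : E, hat p F x * conj ((l x : ℂˣ) : ℂ) =
      (∑ u : P, l' u) * ∑ y : Q, F y * l' y := by
    intro F
    have h1 := nil_sum hPE hQE hcom hP hQ hEP hEQ (fun x => hat p F x * l' x)
    have h2 : ∑ x : E, hat p F x * conj ((l x : ℂˣ) : ℂ) = ∑ x : E, hat p F x * l' x :=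
      Finset.sum_congr rfl fun x _ => by rw [hl']
    rw [h2, h1, Finset.sum_mul]
    refine Finset.sum_congr rfl fun u _ => ?_
    rw [Finset.mul_sum]
    refine Finset.sum_congr rfl fun y _ => ?_
    rw [hat_mul F (hP u u.2) (hQ y y.2) (hcom u u.2 y y.2), hl'm _ (hPE u.2) _ (hQE y.2)]
    ring
  by_cases htr : ∀ u ∈ P, l' u = 1
  · -- trivial on the `p`-part
    have hR : ∀ w : G, MemLocalRing M (if w ∈ Q then (Nat.card Q : ℂ)⁻¹ * l' w else 0) := by
      intro w
      split_ifs with h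
      · refine memR_mul (memR_natCast_inv hM hQc) ?_
        have h1 : l' w ^ (Nat.card E) = 1 := by
          have e1 := hl' ⟨w, hQE h⟩
          have e2 : l' w = conj ((l ⟨w, hQE h⟩ : ℂˣ) : ℂ) := e1
          rw [e2, ← map_pow, ← Units.val_pow_eq_pow_val, ← map_pow, pow_card_eq_one', map_one,
            Units.val_one, map_one]
        exact memR_of_pow_eq_one Nat.card_pos h1
      · exact memR_zero
    refine ⟨rmk fun w => ⟨_, hR w⟩, ?_, ?_⟩
    · apply rext
      intro g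
      rw [rmul_coeff]
      apply Subtype.ext
      push_cast
      show ∑ x : G, (if x ∈ Q then (Nat.card Q : ℂ)⁻¹ * l' x else 0) *
        (if x⁻¹ * g ∈ Q then (Nat.card Q : ℂ)⁻¹ * l' (x⁻¹ * g) else 0) =
        if g ∈ Q then (Nat.card Q : ℂ)⁻¹ * l' g else 0
      by_cases hg : g ∈ Q
      · rw [if_pos hg]
        have e1 : ∀ x : G, (if x ∈ Q then (Nat.card Q : ℂ)⁻¹ * l' x else 0) *
            (if x⁻¹ * g ∈ Q then (Nat.card Q : ℂ)⁻¹ * l' (x⁻¹ * g) else 0) =
            if x ∈ Q then (Nat.card Q : ℂ)⁻¹ * ((Nat.card Q : ℂ)⁻¹ * l' g) else 0 := by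
          intro x
          by_cases hx : x ∈ Q
          · have hxg : x⁻¹ * g ∈ Q := Q.mul_mem (Q.inv_mem hx) hg
            rw [if_pos hx, if_pos hxg, if_pos hx]
            have e2 := hl'm x (hQE hx) (x⁻¹ * g) (hQE hxg)
            rw [mul_inv_cancel_left] at e2
            rw [e2]; ring
          · rw [if_neg hx, if_neg hx, zero_mul]
        rw [Finset.sum_congr rfl fun x _ => e1 x, ← Finset.sum_filter, Finset.sum_const,
          nsmul_eq_mul]
        have e3 : (Finset.univ.filter (fun x : G => x ∈ Q)).card = Nat.card Q := by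
          rw [Nat.card_eq_fintype_card, Fintype.card_subtype]
        rw [e3, ← mul_assoc, mul_inv_cancel₀ (by exact_mod_cast Nat.card_pos.ne'), one_mul]
      · rw [if_neg hg]
        refine Finset.sum_eq_zero fun x _ => ?_
        by_cases hx : x ∈ Q
        · have hxg : ¬ x⁻¹ * g ∈ Q := fun h => hg (by
            have := Q.mul_mem hx h
            rwa [mul_inv_cancel_left] at this)
          rw [if_neg hxg, mul_zero]
        · rw [if_neg hx, zero_mul]
    · intro F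
      rw [hsum, Finset.sum_congr rfl fun u _ => htr (u : P) u.2, Finset.sum_const,
        Finset.card_univ, ← Nat.card_eq_fintype_card, nsmul_eq_mul, mul_one, hcardE]
      have e1 : ∑ w : G, (((rmk fun w => (⟨_, hR w⟩ : LocR.subring M) : RG M G).coeff w :
          LocR.subring M) : ℂ) * F w =
          ∑ w : G, if w ∈ Q then (Nat.card Q : ℂ)⁻¹ * (F w * l' w) else 0 := by
        refine Finset.sum_congr rfl fun w _ => ?_
        show (if w ∈ Q then (Nat.card Q : ℂ)⁻¹ * l' w else 0) * F w = _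
        split_ifs
        · ring
        · rw [zero_mul]
      rw [e1, ← Finset.sum_filter, ← Finset.mul_sum]
      have e2 : ∑ w ∈ Finset.univ.filter (fun x : G => x ∈ Q), F w * l' w =
          ∑ y : Q, F y * l' y := Finset.sum_subtype _ (fun x => by simp) _
      rw [e2]
      have hP0 : (Nat.card P : ℂ) ≠ 0 := by exact_mod_cast Nat.card_pos.ne'
      have hQ0 : (Nat.card Q : ℂ) ≠ 0 := by exact_mod_cast Nat.card_pos.ne'
      field_simp
  · -- nontrivial
    push Not at htr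
    obtain ⟨u₀, hu₀, hne⟩ := htr
    refine ⟨0, by rw [mul_zero], fun F => ?_⟩
    have h0 : ∑ u : P, l' u = 0 := by
      have h1 : l' u₀ * ∑ u : P, l' u = ∑ u : P, l' u := by
        rw [Finset.mul_sum]
        have h2 : ∀ u : P, l' u₀ * l' u = l' (((⟨u₀, hu₀⟩ : P) * u : P) : G) := fun u =>
          (hl'm _ (hPE hu₀) _ (hPE u.2)).symm
        simp_rw [h2]
        exact Equiv.sum_comp (Equiv.mulLeft (⟨u₀, hu₀⟩ : P)) (fun u : P => l' u)
      by_contra h3
      apply hne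
      have h4 : (l' u₀ - 1) * ∑ u : P, l' u = 0 := by rw [sub_mul, h1, one_mul, sub_self]
      rcases mul_eq_zero.1 h4 with h5 | h5
      · exact sub_eq_zero.1 h5
      · exact absurd h5 h3
    rw [hsum, h0, zero_mul, mul_zero]
    symm
    refine Finset.sum_eq_zero fun w _ => ?_
    show ((0 : LocR.subring M) : ℂ) * F w = 0
    rw [ZeroMemClass.coe_zero, zero_mul]

end Nil

end CfsgLib.Star
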