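import Mathlib
import Cfsg.Agent.EqBase
import Cfsg.Agent.LibStar75

/-!
# Star construction, LXXVI: the lattice of Brauer characters via points (helper18)
-/

set_option autoImplicit false
set_option linter.unusedSectionVars false
set_option linter.style.haveILetI false
set_option linter.unusedSimpArgs false
set_option linter.unusedVariables false

namespace CfsgLib.Star

open Cfsg CfsgLib.GalChar CfsgLib.GalField CfsgLib.BlockReg CfsgLib.BlockReg2 CfsgLib.LocR
  CfsgLib.BrP CfsgLib.Car CfsgLib.BlockQP CfsgLib.BlockDefect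
  CfsgLib.Points CfsgLib.PLocalInd CfsgLib.CharBasic CfsgLib.BlockCore CfsgLib.BlockSec
  CfsgLib.BlockR CfsgLib.BlockIdem CfsgLib.BlockOrth CfsgLib.CharIndA CfsgLib.CharNorm
open scoped ComplexConjugate Pointwise

universe u v

section Rp

variable {k : Type*} [Field k] [IsAlgClosed k] {A : Type*} [Ring A] [Algebra k A]
  [FiniteDimensional k A]

open Classical in
/-- a representative of the class of a primitive idempotent -/
noncomputable def rp (L : Finset A) (j : A) : A :=
  if h : ∃ m, m ∈ L ∧ Iso m j then h.choose else 0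

include k in
variable (k) in
theorem rp_spec {L : Finset A} (hL : Dec (1 : A) L) {j : A} (hj : Prim j) :
    rp L j ∈ L ∧ Iso (rp L j) j := by
  obtain ⟨l, hl, hi⟩ := exists_iso_L k hL (O := fun _ => True) (fun _ _ _ _ _ => Iff.rfl) hj
  have h : ∃ m, m ∈ L ∧ Iso m j := ⟨l, hl, hi.symm⟩
  unfold rp
  rw [dif_pos h]
  exact h.choose_spec

omit [Algebra k A] [FiniteDimensional k A] [IsAlgClosed k] in
theorem rp_eq {L : Finset A} {i j : A} (h : Iso i j) : rp L i = rp L j := by
  have h1 : (fun m => m ∈ L ∧ Iso m i) = (fun m => m ∈ L ∧ Iso m j) := by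
    funext m
    exact propext ⟨fun h' => ⟨h'.1, h'.2.trans h⟩, fun h' => ⟨h'.1, h'.2.trans h.symm⟩⟩
  unfold rp
  have h2 : (∃ m, m ∈ L ∧ Iso m i) ↔ (∃ m, m ∈ L ∧ Iso m j) := by
    constructor
    · rintro ⟨m, hm⟩; exact ⟨m, (congrFun h1 m).mp hm⟩
    · rintro ⟨m, hm⟩; exact ⟨m, (congrFun h1 m).mpr hm⟩
  by_cases h3 : ∃ m, m ∈ L ∧ Iso m i
  · rw [dif_pos h3, dif_pos (h2.1 h3)]
    congr 1
  · rw [dif_neg h3, dif_neg (fun h' => h3 (h2.2 h'))]

end Rp

section Pts

variable {M : Ideal AlgInt} [hPr : M.IsPrime] {G : Type u} [Group G] [Fintype G]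
variable {p : ℕ} [hp : Fact p.Prime] [hch : CharP (kM M) p]

theorem h1G' : ∃ j : ℕ, orderOf (1 : G) = p ^ j := ⟨0, by rw [orderOf_one, pow_zero]⟩

theorem tau_tv (hM : IsPModular p M) {F : G → ℂ} (hF : IsClassFunction G F) {a : RG M G}
    (haa : a * a = a) : tau F 1 (red M G a) = ∑ w : G, (a.coeff w : ℂ) * F w := by
  rw [tau_eq hM hF (h1G' (p := p)) haa (by
    intro x hx g
    rw [Subgroup.zpowers_one_eq_bot, Subgroup.mem_bot] at hx
    subst hx
    rw [one_mul, inv_one, mul_one]) rfl]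
  unfold tv
  refine Finset.sum_congr rfl fun w _ => ?_
  rw [one_mul]

theorem ex_lift {x : MonoidAlgebra (kM M) G} (hx : x * x = x) :
    ∃ a : RG M G, a * a = a ∧ red M G a = x := by
  obtain ⟨a, haa, ha, har⟩ := exists_lift (S := Subgroup.zpowers (1 : G)) (fx_one_zp x) hx
  exact ⟨a, haa, har⟩

theorem tau_isoF (hM : IsPModular p M) {F : G → ℂ} (hF : IsClassFunction G F)
    {j l : MonoidAlgebra (kM M) G}
    (hj : j * j = j) (hl : l * l = l) (h : Iso j l) : tau F 1 j = tau F 1 l := by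
  obtain ⟨x, y, h1, h2, h3, h4, h5, h6⟩ := h
  exact tau_comm hM hF (h1G' (p := p)) (fx_one_zp _) (fx_one_zp _) hj hl
    (fx_one_zp _) (fx_one_zp _) h1 h2 h3 h4 h5 h6

theorem tau_dec (hM : IsPModular p M) {F : G → ℂ} (hF : IsClassFunction G F)
    {q : MonoidAlgebra (kM M) G} {L : Finset (MonoidAlgebra (kM M) G)} (hL : Dec q L) :
    tau F 1 q = ∑ l ∈ L, tau F 1 l := by
  conv_lhs => rw [← hL.sum]
  exact tau_sum hM hF (h1G' (p := p)) L (fun l => l) (fun l _ => fx_one_zp l)
    (fun l hl => (hL.prim l hl).idem) hL.orth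

theorem tau_lin (hM : IsPModular p M) (c : IrrCharacter G → ℂ) {j : MonoidAlgebra (kM M) G}
    (hj : j * j = j) : tau (fun g => ∑ χ : IrrCharacter G, c χ * (χ : G → ℂ) g) 1 j =
      ∑ χ : IrrCharacter G, c χ * tau (χ : G → ℂ) 1 j := by
  obtain ⟨a, haa, har⟩ := ex_lift hj
  have hF : IsClassFunction G (fun g => ∑ χ : IrrCharacter G, c χ * (χ : G → ℂ) g) := by
    intro g h
    exact Finset.sum_congr rfl fun χ _ => by rw [irr_classFun χ.2 g h]
  rw [← har, tau_tv hM hF haa]
  have h1 : ∀ χ : IrrCharacter G, tau (χ : G → ℂ) 1 (red M G a) =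
      ∑ w : G, (a.coeff w : ℂ) * (χ : G → ℂ) w := fun χ => tau_tv hM (irr_classFun χ.2) haa
  simp_rw [h1, Finset.mul_sum]
  rw [Finset.sum_comm]
  refine Finset.sum_congr rfl fun χ _ => Finset.sum_congr rfl fun w _ => by ring

theorem tau_one' (hM : IsPModular p M) {F : G → ℂ} (hF : IsClassFunction G F) :
    tau (M := M) F 1 1 = F 1 := by
  classical
  have h1 : red M G (1 : RG M G) = 1 := map_one _
  rw [← h1, tau_tv hM hF (one_mul 1)]
  have h2 : ∀ w : G, (((1 : RG M G).coeff w : LocR.subring M) : ℂ) * F w =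
      if w = 1 then F 1 else 0 := by
    intro w
    rw [rone_coeff]
    by_cases h : w = 1
    · rw [if_pos h, if_pos h, h, OneMemClass.coe_one, one_mul]
    · rw [if_neg h, if_neg h, ZeroMemClass.coe_zero, zero_mul]
  simp_rw [h2]
  simp

/-- multiplicity of a linear character of a nilpotent subgroup -/
theorem hat_ind (hM : IsPModular p M) {E : Subgroup G} (hE : Group.IsNilpotent E)
    (l : E →* ℂˣ) : ∃ q : MonoidAlgebra (kM M) G, q * q = q ∧ ∀ F : G → ℂ, IsClassFunction G F →
      classInner (hat p F) (indFun E (fun e => (l e : ℂ))) = tau F 1 q := by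
  haveI := Fintype.ofFinite E
  obtain ⟨q, hq, h⟩ := idem_lin hM hE l
  refine ⟨red M G q, by rw [← map_mul, hq], fun F hF => ?_⟩
  rw [frobenius' E _ (hat_cf hF), tau_tv hM hF hq, ← h F]
  rfl

section Blk

variable [M.IsMaximal] {B : Set (IrrCharacter G)}

/-- the decomposition of the block idempotent -/
noncomputable def DB (M : Ideal AlgInt) [hPr : M.IsPrime] {G : Type u} [Group G] [Fintype G]
    (B : Set (IrrCharacter G)) (L : Finset (MonoidAlgebra (kM M) G)) :
    Finset (MonoidAlgebra (kM M) G) := by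
  classical exact L.filter (fun l => l * JB M B = l)

theorem mem_DB {L : Finset (MonoidAlgebra (kM M) G)} {l : MonoidAlgebra (kM M) G} :
    l ∈ DB M B L ↔ l ∈ L ∧ l * JB M B = l := by
  classical
  unfold DB
  rw [Finset.mem_filter]

theorem JB_comm (hB : IsPBlock M B) (a : MonoidAlgebra (kM M) G) : JB M B * a = a * JB M B :=
  comm_of_fx_supp (H := ⊤) (g_blk hB).zh.2 (fun g hg => absurd (Subgroup.mem_top g) hg)

theorem DB_dec (hB : IsPBlock M B) {L : Finset (MonoidAlgebra (kM M) G)} (hL : Dec 1 L) :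
    Dec (JB M B) (DB M B L) := by
  classical
  unfold DB
  exact dec_filter hL (g_blk hB).idem (JB_comm hB)

theorem tau_JB_out (hM : IsPModular p M) (hB : IsPBlock M B)
    {χ : IrrCharacter G} (hχ : χ ∉ B) : tau (χ : G → ℂ) 1 (JB M B) = 0 := by
  classical
  obtain ⟨a, haa, ha, har, hac⟩ := exists_EB hB
  rw [← har, tau_tv hM (irr_classFun χ.2) haa]
  simp only [hac]
  have h2 := sum_coeff_mul B (CfsgLib.CharInt.irr_classFun χ.2) 1
  simp only [mul_one] at h2
  rw [h2, blockPart_expand]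
  refine Finset.sum_eq_zero fun ψ _ => ?_
  by_cases hψ : ψ ∈ B
  · have h1 := irr_inner χ.2 ψ.2
    rw [if_neg (fun h => hχ (by rw [show χ = ψ from Subtype.ext h]; exact hψ))] at h1
    rw [h1, zero_mul, mul_zero]
  · rw [ind_not hψ, zero_mul]

theorem tau_in_out (hM : IsPModular p M) (hB : IsPBlock M B)
    {L : Finset (MonoidAlgebra (kM M) G)} (hL : Dec 1 L) {χ : IrrCharacter G} (hχ : χ ∉ B)
    {l : MonoidAlgebra (kM M) G} (hl : l ∈ DB M B L) : tau (χ : G → ℂ) 1 l = 0 := by
  have hD := DB_dec hB hL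
  choose N hN using fun l : {l // l ∈ DB M B L} => tau_nat hM χ (hD.prim l l.2).idem
  have h1 := tau_dec hM (irr_classFun χ.2) hD
  rw [tau_JB_out hM hB hχ, ← Finset.sum_coe_sort] at h1
  rw [Finset.sum_congr rfl fun l _ => hN l] at h1
  have h2 : ∑ l : {l // l ∈ DB M B L}, N l = 0 := by exact_mod_cast h1.symm
  have h3 := (Finset.sum_eq_zero_iff.1 h2) ⟨l, hl⟩ (Finset.mem_univ _)
  have h4 := hN ⟨l, hl⟩
  rw [h3, Nat.cast_zero] at h4
  exact h4

theorem tau_out (hM : IsPModular p M) (hB : IsPBlock M B)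
    {L : Finset (MonoidAlgebra (kM M) G)} (hL : Dec 1 L) {χ : IrrCharacter G} (hχ : χ ∈ B)
    {l : MonoidAlgebra (kM M) G} (hl : l ∈ L) (hl' : l ∉ DB M B L) :
    tau (χ : G → ℂ) 1 l = 0 := by
  classical
  have hD := DB_dec hB hL
  have hsub : DB M B L ⊆ L := fun l hl => (mem_DB.1 hl).1
  have h1 := tau_dec hM (irr_classFun χ.2) hL
  rw [tau_one' hM (irr_classFun χ.2), ← tau_JB hM hB hχ, tau_dec hM (irr_classFun χ.2) hD,
    ← Finset.sum_sdiff hsub] at h1
  have h2 : ∑ l ∈ L \ DB M B L, tau (χ : G → ℂ) 1 l = 0 := by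
    have h3 : ∀ a b : ℂ, a = b + a → b = 0 := fun a b h => by
      have : b = (b + a) - a := by ring
      rw [this, ← h, sub_self]
    exact h3 _ _ h1
  choose N hN using fun l : {l // l ∈ L \ DB M B L} =>
    tau_nat hM χ (hL.prim l (Finset.mem_sdiff.1 l.2).1).idem
  rw [← Finset.sum_coe_sort, Finset.sum_congr rfl fun l _ => hN l] at h2
  have h2' : ∑ l : {l // l ∈ L \ DB M B L}, N l = 0 := by exact_mod_cast h2
  have h3 := (Finset.sum_eq_zero_iff.1 h2') ⟨l, Finset.mem_sdiff.2 ⟨hl, hl'⟩⟩ (Finset.mem_univ _)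
  have h4 := hN ⟨l, Finset.mem_sdiff.2 ⟨hl, hl'⟩⟩
  rw [h3, Nat.cast_zero] at h4
  exact h4

/-- a combination of characters of `B` with vanishing multiplicities vanishes on `p`-regular
elements -/
theorem van_reg (hM : IsPModular p M) (hB : IsPBlock M B)
    {L : Finset (MonoidAlgebra (kM M) G)} (hL : Dec 1 L) {c : IrrCharacter G → ℂ}
    (hc : ∀ χ, χ ∉ B → c χ = 0)
    (h0 : ∀ l ∈ DB M B L, ∑ χ : IrrCharacter G, c χ * tau (χ : G → ℂ) 1 l = 0)
    {s : G} (hs : ¬ p ∣ orderOf s) : ∑ χ : IrrCharacter G, c χ * (χ : G → ℂ) s = 0 := by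
  classical
  set F : G → ℂ := fun g => ∑ χ : IrrCharacter G, c χ * (χ : G → ℂ) g with hFdef
  have hF : IsClassFunction G F := by
    intro g h
    exact Finset.sum_congr rfl fun χ _ => by rw [irr_classFun χ.2 g h]
  have hLz : ∀ l ∈ L, tau F 1 l = 0 := by
    intro l hl
    rw [hFdef, tau_lin hM c (hL.prim l hl).idem]
    by_cases hl' : l ∈ DB M B L
    · exact h0 l hl'
    · refine Finset.sum_eq_zero fun χ _ => ?_
      by_cases hχ : χ ∈ B
      · rw [tau_out hM hB hL hχ hl hl', mul_zero]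
      · rw [hc χ hχ, zero_mul]
  have hidem : ∀ q : MonoidAlgebra (kM M) G, q * q = q → tau F 1 q = 0 := by
    intro q hq
    obtain ⟨Lq, hLq⟩ := exists_dec (kM M) hq
    rw [tau_dec hM hF hLq]
    refine Finset.sum_eq_zero fun l hl => ?_
    have hpl := hLq.prim l hl
    obtain ⟨h1, h2⟩ := rp_spec (kM M) hL hpl
    rw [← tau_isoF hM hF (hL.prim _ h1).idem hpl.idem h2]
    exact hLz _ h1
  have key : ∀ ψ : IrrCharacter G, classInner (hat p F) (ψ : G → ℂ) = 0 := by
    intro ψ
    have h1 := CfsgLib.Monomial.lin_mem_span (CfsgLib.CharInt.irr_isCharacter ψ.2)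
    have h2 : ∀ f ∈ Submodule.span ℤ (CfsgLib.Monomial.linSet
        (fun H : Subgroup G => ∃ p : ℕ, p.Prime ∧ IsElementary p H)),
        classInner (hat p F) f = 0 := by
      intro f hf
      induction hf using Submodule.span_induction with
      | mem x hx =>
        obtain ⟨E, l, ⟨r, hr, hE⟩, rfl⟩ := hx
        obtain ⟨q, hq, h3⟩ := hat_ind hM (CfsgLib.Monomial.elementary_nilpotent hr hE) l
        rw [h3 F hF, hidem q hq]
      | zero => unfold classInner; simp
      | add x y _ _ hx hy =>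
        have h3 : classInner (hat p F) (x + y) = classInner (hat p F) x + classInner (hat p F) y := by
          unfold classInner
          rw [← mul_add, ← Finset.sum_add_distrib]
          congr 1
          refine Finset.sum_congr rfl fun g _ => ?_
          rw [Pi.add_apply, map_add]; ring
        rw [h3, hx, hy, add_zero]
      | smul a x _ hx =>
        have h3 : classInner (hat p F) (a • x) = (a : ℂ) * classInner (hat p F) x := by
          unfold classInner
          have e : ∀ g, hat p F g * conj ((a • x) g) = (a : ℂ) * (hat p F g * conj (x g)) := by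
            intro g
            rw [Pi.smul_apply, zsmul_eq_mul, map_mul, map_intCast]; ring
          rw [Finset.sum_congr rfl fun g _ => e g, ← Finset.mul_sum]
          ring
        rw [h3, hx, mul_zero]
    exact h2 _ h1
  have h1 := classFun_expand_apply (hat_cf (p := p) hF) s
  rw [hat_reg F hs] at h1
  have h2 : F s = 0 := by
    refine h1.trans ?_
    refine Finset.sum_eq_zero fun ψ _ => ?_
    rw [key ψ, zero_mul]
  exact h2

end Blk

end Pts

end CfsgLib.Star
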