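import Mathlib
import Cfsg.Agent.EqBase
import Cfsg.Agent.LibStar76

/-!
# Star construction, LXXVII: blocks all of whose characters have the same degree (helper18)
-/

set_option autoImplicit false
set_option linter.unusedSectionVars false
set_option linter.style.haveILetI false
set_option linter.unusedSimpArgs false
set_option linter.unusedVariables false

namespace CfsgLib.Star

open Cfsg CfsgLib.GalChar CfsgLib.GalField CfsgLib.BlockReg CfsgLib.BlockReg2 CfsgLib.LocR
  CfsgLib.BrP CfsgLib.Car CfsgLib.BlockQP CfsgLib.BlockDefect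
  CfsgLib.Points CfsgLib.PLocalInd CfsgLib.CharBasic CfsgLib.BlockCore CfsgLib.BlockSec
  CfsgLib.BlockR CfsgLib.BlockIdem CfsgLib.BlockOrth CfsgLib.CharIndA CfsgLib.CharNorm
open scoped ComplexConjugate Pointwise

universe u v

variable {M : Ideal AlgInt} [hPr : M.IsPrime] {G : Type u} [Group G] [Fintype G]
variable {p : ℕ} [hp : Fact p.Prime] [hch : CharP (kM M) p] [hMx : M.IsMaximal]
variable {B : Set (IrrCharacter G)}

theorem tau_ring (hM : IsPModular p M) (χ : IrrCharacter G) {j : MonoidAlgebra (kM M) G}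
    (hj : j * j = j) : MemLocalRing M (tau (χ : G → ℂ) 1 j) := by
  obtain ⟨n, hn⟩ := tau_nat hM χ hj
  rw [hn]; exact memR_natCast n

theorem rd_tau (hM : IsPModular p M) (χ : IrrCharacter G) {j : MonoidAlgebra (kM M) G}
    (hj : j * j = j) : rd M (tau (χ : G → ℂ) 1 j) =
      ∑ x : G, j.coeff x * rd M ((χ : G → ℂ) x) := by
  obtain ⟨a, haa, har⟩ := ex_lift hj
  rw [← har, tau_tv hM (irr_classFun χ.2) haa, rd_sum]
  · refine Finset.sum_congr rfl fun x _ => ?_
    rw [rd_mul (a.coeff x).2 (irr_ring hPr χ x), red_coeff, rd_of (a.coeff x).2]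
  · intro x _
    exact memR_mul (a.coeff x).2 (irr_ring hPr χ x)

/-- the functional attached to a point -/
theorem key_fun (hM : IsPModular p M) (hB : IsPBlock M B)
    {L : Finset (MonoidAlgebra (kM M) G)} (hL : Dec 1 L) {i : MonoidAlgebra (kM M) G}
    (hi : i ∈ DB M B L) : ∃ a : IrrCharacter G → kM M, (∀ χ, χ ∉ B → a χ = 0) ∧
      ∀ j ∈ L, (Iso i j → ∑ χ : IrrCharacter G, a χ * rd M (tau (χ : G → ℂ) 1 j) = 1) ∧
        (¬ Iso i j → ∑ χ : IrrCharacter G, a χ * rd M (tau (χ : G → ℂ) 1 j) = 0) := by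
  classical
  obtain ⟨hiL, hib⟩ := mem_DB.1 hi
  have hblk := g_blk hB
  obtain ⟨ρ, hρ1, hρ2⟩ := exists_rep (kM M) hL hiL (D := L.filter fun q => Iso i q)
    (fun q => by rw [Finset.mem_filter])
  obtain ⟨a, ha1, ha2⟩ := trace_span hM hB ρ (hρ2 _ (JB_comm hB) hblk.idem hib)
  have key : ∀ j ∈ L, ∑ χ : IrrCharacter G, a χ * rd M (tau (χ : G → ℂ) 1 j) =
      if Iso i j then 1 else 0 := by
    intro j hj
    rw [← hρ1 j hj]
    conv_rhs => rw [eq_sum_sg j]
    rw [map_sum, Matrix.trace_sum]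
    have e1 : ∀ χ : IrrCharacter G, a χ * rd M (tau (χ : G → ℂ) 1 j) =
        ∑ x : G, a χ * (j.coeff x * rd M ((χ : G → ℂ) x)) := by
      intro χ
      rw [rd_tau hM χ (hL.prim j hj).idem, Finset.mul_sum]
    simp_rw [e1]
    rw [Finset.sum_comm]
    refine Finset.sum_congr rfl fun x _ => ?_
    rw [map_smul, Matrix.trace_smul, smul_eq_mul, ha2, Finset.mul_sum]
    refine Finset.sum_congr rfl fun χ _ => by ring
  refine ⟨a, ha1, fun j hj => ⟨fun h => ?_, fun h => ?_⟩⟩
  · rw [key j hj, if_pos h]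
  · rw [key j hj, if_neg h]

/-- representatives of the points of the block -/
noncomputable def PT (M : Ideal AlgInt) [hPr : M.IsPrime] {G : Type u} [Group G] [Fintype G]
    (B : Set (IrrCharacter G)) (L : Finset (MonoidAlgebra (kM M) G)) :
    Finset (MonoidAlgebra (kM M) G) := by
  classical exact (DB M B L).image (rp L)

theorem mem_PT {L : Finset (MonoidAlgebra (kM M) G)} {i : MonoidAlgebra (kM M) G} :
    i ∈ PT M B L ↔ ∃ l ∈ DB M B L, rp L l = i := by
  classical
  unfold PT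
  rw [Finset.mem_image]

theorem iso_DB (hB : IsPBlock M B) {L : Finset (MonoidAlgebra (kM M) G)} (hL : Dec 1 L)
    {l m : MonoidAlgebra (kM M) G} (hl : l ∈ DB M B L) (hm : m ∈ L) (h : Iso m l) :
    m ∈ DB M B L := by
  refine mem_DB.2 ⟨hm, ?_⟩
  obtain ⟨x, y, h1, h2, h3, h4, h5, h6⟩ := h
  have hb := (mem_DB.1 hl).2
  have e1 : m * JB M B = x * y * JB M B := by rw [h5]
  rw [e1, mul_assoc, ← JB_comm hB, ← mul_assoc]
  have e2 : x * JB M B = x := by
    conv_lhs => rw [← h2]
    rw [mul_assoc, hb, h2]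
  rw [e2, h5]

theorem PT_spec (hB : IsPBlock M B) {L : Finset (MonoidAlgebra (kM M) G)} (hL : Dec 1 L)
    {i : MonoidAlgebra (kM M) G} (hi : i ∈ PT M B L) : i ∈ DB M B L ∧ rp L i = i := by
  obtain ⟨l, hl, rfl⟩ := mem_PT.1 hi
  have hp := hL.prim l (mem_DB.1 hl).1
  obtain ⟨h1, h2⟩ := rp_spec (kM M) hL hp
  exact ⟨iso_DB hB hL hl h1 h2, rp_eq h2⟩

theorem PT_iso (hB : IsPBlock M B) {L : Finset (MonoidAlgebra (kM M) G)} (hL : Dec 1 L)
    {i j : MonoidAlgebra (kM M) G} (hi : i ∈ PT M B L) (hj : j ∈ PT M B L) (h : Iso i j) :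
    i = j := by
  rw [← (PT_spec hB hL hi).2, ← (PT_spec hB hL hj).2]
  exact rp_eq h

/-- the multiplicity vectors of the points are independent -/
theorem li_N (hM : IsPModular p M) (hB : IsPBlock M B)
    {L : Finset (MonoidAlgebra (kM M) G)} (hL : Dec 1 L) {c : MonoidAlgebra (kM M) G → ℂ}
    (hc : ∀ χ ∈ B, ∑ i ∈ PT M B L, c i * tau (χ : G → ℂ) 1 i = 0) :
    ∀ i ∈ PT M B L, c i = 0 := by
  classical
  have hid : ∀ i : {i // i ∈ PT M B L}, (i : MonoidAlgebra (kM M) G) * i = i := fun i =>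
    (hL.prim _ (mem_DB.1 (PT_spec hB hL i.2).1).1).idem
  let v : {i // i ∈ PT M B L} → IrrCharacter G → LocR.subring M :=
    fun i χ => ⟨tau (χ : G → ℂ) 1 (i : MonoidAlgebra (kM M) G), tau_ring hM χ (hid i)⟩
  have h1 : LinearIndependent (IsLocalRing.ResidueField (LocR.subring M))
      (fun i => fun χ => IsLocalRing.residue (LocR.subring M) (v i χ)) := by
    rw [Fintype.linearIndependent_iff]
    intro g hg i₀
    obtain ⟨a, ha1, ha2⟩ := key_fun hM hB hL (PT_spec hB hL i₀.2).1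
    have h2 : ∀ χ : IrrCharacter G, ∑ i, g i * rd M (tau (χ : G → ℂ) 1
        (i : MonoidAlgebra (kM M) G)) = 0 := by
      intro χ
      have h3 := congrFun hg χ
      rw [Finset.sum_apply] at h3
      refine (Finset.sum_congr rfl fun i _ => ?_).trans h3
      rw [rd_of (tau_ring hM χ (hid i))]
      rfl
    have h4 : ∑ i : {i // i ∈ PT M B L}, g i * (∑ χ : IrrCharacter G, a χ *
        rd M (tau (χ : G → ℂ) 1 (i : MonoidAlgebra (kM M) G))) = 0 := by
      simp_rw [Finset.mul_sum]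
      rw [Finset.sum_comm]
      refine Finset.sum_eq_zero fun χ _ => ?_
      have h5 : ∀ i : {i // i ∈ PT M B L}, g i * (a χ *
          rd M (tau (χ : G → ℂ) 1 (i : MonoidAlgebra (kM M) G))) = a χ * (g i *
          rd M (tau (χ : G → ℂ) 1 (i : MonoidAlgebra (kM M) G))) := fun i => by ring
      rw [Finset.sum_congr rfl fun i _ => h5 i, ← Finset.mul_sum, h2 χ, mul_zero]
    rw [Finset.sum_eq_single i₀] at h4
    · rw [(ha2 _ (mem_DB.1 (PT_spec hB hL i₀.2).1).1).1
        (Iso.refl (hid i₀)), mul_one] at h4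
      exact h4
    · intro i _ hi
      rw [(ha2 _ (mem_DB.1 (PT_spec hB hL i.2).1).1).2 (fun h => hi (Subtype.ext
        (PT_iso hB hL i₀.2 i.2 h).symm)), mul_zero]
    · intro h; exact absurd (Finset.mem_univ _) h
  have h2 := li_lift (LocR.subring M).subtype v h1
  rw [Fintype.linearIndependent_iff] at h2
  intro i hi
  refine h2 (fun i => c i) ?_ ⟨i, hi⟩
  funext χ
  rw [Finset.sum_apply]
  show ∑ i : {i // i ∈ PT M B L}, c i * tau (χ : G → ℂ) 1 (i : MonoidAlgebra (kM M) G) = 0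
  by_cases hχ : χ ∈ B
  · have h3 := hc χ hχ
    rw [← Finset.sum_coe_sort] at h3
    exact h3
  · refine Finset.sum_eq_zero fun i _ => ?_
    rw [tau_in_out hM hB hL hχ (PT_spec hB hL i.2).1, mul_zero]

open Classical in
/-- sums over decompositions -/
theorem tau_count (hM : IsPModular p M) (hB : IsPBlock M B)
    {L : Finset (MonoidAlgebra (kM M) G)} (hL : Dec 1 L) {q : MonoidAlgebra (kM M) G}
    {Lq : Finset (MonoidAlgebra (kM M) G)} (hLq : Dec q Lq) {χ : IrrCharacter G} (hχ : χ ∈ B) :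
    tau (χ : G → ℂ) 1 q = ∑ i ∈ PT M B L,
      ((Lq.filter fun l => rp L l = i).card : ℂ) * tau (χ : G → ℂ) 1 i := by
  have h1 : ∀ l ∈ Lq, tau (χ : G → ℂ) 1 l = tau (χ : G → ℂ) 1 (rp L l) := by
    intro l hl
    have hpl := hLq.prim l hl
    obtain ⟨h1, h2⟩ := rp_spec (kM M) hL hpl
    exact (tau_isoF hM (irr_classFun χ.2) (hL.prim _ h1).idem hpl.idem h2).symm
  rw [tau_dec hM (irr_classFun χ.2) hLq, Finset.sum_congr rfl h1]
  have h2 : ∀ i ∈ PT M B L, ((Lq.filter fun l => rp L l = i).card : ℂ) * tau (χ : G → ℂ) 1 i =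
      ∑ l ∈ Lq, if rp L l = i then tau (χ : G → ℂ) 1 (rp L l) else 0 := by
    intro i _
    rw [← Finset.sum_filter, Finset.card_eq_sum_ones, Nat.cast_sum, Finset.sum_mul]
    refine Finset.sum_congr rfl fun l hl => ?_
    rw [(Finset.mem_filter.1 hl).2, Nat.cast_one, one_mul]
  rw [Finset.sum_congr rfl h2, Finset.sum_comm]
  refine Finset.sum_congr rfl fun l hl => ?_
  rw [Finset.sum_ite_eq]
  split_ifs with h
  · rfl
  · have hpl := hLq.prim l hl
    obtain ⟨h3, h4⟩ := rp_spec (kM M) hL hpl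
    refine tau_out hM hB hL hχ h3 fun h5 => h ?_
    exact mem_PT.2 ⟨_, h5, rp_eq h4⟩

open Classical in
/-- `n` divides the dimensions of the simple modules -/
theorem dim_dvd (hM : IsPModular p M) (hB : IsPBlock M B)
    {L : Finset (MonoidAlgebra (kM M) G)} (hL : Dec 1 L) {n : ℕ} (hn : 0 < n)
    (hdeg : ∀ χ ∈ B, (χ : G → ℂ) 1 = n) : ∃ z : MonoidAlgebra (kM M) G → ℤ,
      ∀ i ∈ PT M B L, (((DB M B L).filter fun l => rp L l = i).card : ℤ) = n * z i := by
  have hn0 : (n : ℂ) ≠ 0 := by exact_mod_cast hn.ne'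
  -- integrality
  have key : ∀ f ∈ Submodule.span ℤ (CfsgLib.Monomial.linSet
      (fun H : Subgroup G => ∃ p : ℕ, p.Prime ∧ IsElementary p H)),
      ∃ z : MonoidAlgebra (kM M) G → ℤ, ∀ χ ∈ B, classInner (hat p (χ : G → ℂ)) f =
        ∑ i ∈ PT M B L, (z i : ℂ) * tau (χ : G → ℂ) 1 i := by
    intro f hf
    induction hf using Submodule.span_induction with
    | mem x hx =>
      obtain ⟨E, l, ⟨r, hr, hE⟩, rfl⟩ := hx
      obtain ⟨q, hq, h3⟩ := hat_ind hM (CfsgLib.Monomial.elementary_nilpotent hr hE) l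
      obtain ⟨Lq, hLq⟩ := exists_dec (kM M) hq
      refine ⟨fun i => ((Lq.filter fun l => rp L l = i).card : ℤ), fun χ hχ => ?_⟩
      rw [h3 _ (irr_classFun χ.2), tau_count hM hB hL hLq hχ]
      refine Finset.sum_congr rfl fun i _ => by push_cast; rfl
    | zero =>
      refine ⟨fun _ => 0, fun χ _ => ?_⟩
      unfold classInner
      simp
    | add x y _ _ hx hy =>
      obtain ⟨z, hz⟩ := hx
      obtain ⟨w, hw⟩ := hy
      refine ⟨fun i => z i + w i, fun χ hχ => ?_⟩
      have h3 : classInner (hat p (χ : G → ℂ)) (x + y) =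
          classInner (hat p (χ : G → ℂ)) x + classInner (hat p (χ : G → ℂ)) y := by
        unfold classInner
        rw [← mul_add, ← Finset.sum_add_distrib]
        congr 1
        refine Finset.sum_congr rfl fun g _ => ?_
        rw [Pi.add_apply, map_add]; ring
      rw [h3, hz χ hχ, hw χ hχ, ← Finset.sum_add_distrib]
      refine Finset.sum_congr rfl fun i _ => by push_cast; ring
    | smul a x _ hx =>
      obtain ⟨z, hz⟩ := hx
      refine ⟨fun i => a * z i, fun χ hχ => ?_⟩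
      have h3 : classInner (hat p (χ : G → ℂ)) (a • x) =
          (a : ℂ) * classInner (hat p (χ : G → ℂ)) x := by
        unfold classInner
        have e : ∀ g, hat p (χ : G → ℂ) g * conj ((a • x) g) =
            (a : ℂ) * (hat p (χ : G → ℂ) g * conj (x g)) := by
          intro g
          rw [Pi.smul_apply, zsmul_eq_mul, map_mul, map_intCast]; ring
        rw [Finset.sum_congr rfl fun g _ => e g, ← Finset.mul_sum]
        ring
      rw [h3, hz χ hχ, Finset.mul_sum]
      refine Finset.sum_congr rfl fun i _ => by push_cast; ring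
  -- the sum of the characters of the block
  set Ψ : G → ℂ := ∑ χ ∈ Finset.univ.filter (fun χ : IrrCharacter G => χ ∈ B), (χ : G → ℂ)
    with hΨ
  have hΨc : IsCharacter G Ψ := isCharacter_sum _ _ fun χ _ => CfsgLib.CharInt.irr_isCharacter χ.2
  have hΨa : ∀ g, Ψ g = ∑ χ : IrrCharacter G, ind B χ * (χ : G → ℂ) g := by
    intro g
    rw [hΨ, Finset.sum_apply, Finset.sum_filter]
    refine Finset.sum_congr rfl fun χ _ => ?_
    split_ifs with h
    · rw [ind_of h, one_mul]
    · rw [ind_not h, zero_mul]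
  have h1r : ¬ p ∣ orderOf (1 : G) := by rw [orderOf_one]; exact hp.out.not_dvd_one
  have hΨ0 : ∀ g, p ∣ orderOf g → Ψ g = 0 := by
    intro g hg
    have h1 := KK_zero hM hB h1r hg
    unfold KK at h1
    have h2 : ∀ ψ : IrrCharacter G, ind B ψ * ((ψ : G → ℂ) 1 * conj ((ψ : G → ℂ) g)) =
        n * (ind B ψ * conj ((ψ : G → ℂ) g)) := by
      intro ψ
      by_cases hψ : ψ ∈ B
      · rw [hdeg ψ hψ]; ring
      · rw [ind_not hψ]; ring
    simp_rw [h2] at h1
    rw [← Finset.mul_sum] at h1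
    have h3 := (mul_eq_zero.1 h1).resolve_left hn0
    have h4 : conj (Ψ g) = 0 := by
      rw [hΨa, map_sum, ← h3]
      refine Finset.sum_congr rfl fun ψ _ => ?_
      rw [map_mul, conj_ind']
    have h5 := congrArg conj h4
    rwa [Complex.conj_conj, map_zero] at h5
  have hΨ1 : ∀ χ ∈ B, classInner (hat p (χ : G → ℂ)) Ψ = 1 := by
    intro χ hχ
    have h1 : classInner (hat p (χ : G → ℂ)) Ψ = classInner (χ : G → ℂ) Ψ := by
      unfold classInner
      congr 1
      refine Finset.sum_congr rfl fun g _ => ?_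
      by_cases hg : p ∣ orderOf g
      · rw [hΨ0 g hg, map_zero, mul_zero, mul_zero]
      · rw [hat_reg _ hg]
    rw [h1]
    have h2 : classInner (χ : G → ℂ) Ψ = ∑ ψ : IrrCharacter G, ind B ψ *
        classInner (χ : G → ℂ) (ψ : G → ℂ) := by
      unfold classInner
      simp_rw [hΨa, map_sum, Finset.mul_sum]
      rw [Finset.sum_comm]
      refine Finset.sum_congr rfl fun ψ _ => ?_
      refine Finset.sum_congr rfl fun g _ => ?_
      rw [map_mul, conj_ind']; ring
    rw [h2, Finset.sum_eq_single χ]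
    · rw [ind_of hχ, (irr_iff_norm_one.mp χ.2).2, one_mul]
    · intro ψ _ hψ
      have h3 := irr_inner χ.2 ψ.2
      rw [if_neg (fun h => hψ (Subtype.ext h).symm)] at h3
      rw [h3, mul_zero]
    · intro h; exact absurd (Finset.mem_univ _) h
  obtain ⟨z, hz⟩ := key Ψ (CfsgLib.Monomial.lin_mem_span hΨc)
  refine ⟨z, ?_⟩
  have h1 := li_N hM hB hL (c := fun i =>
    (((DB M B L).filter fun l => rp L l = i).card : ℂ) - n * z i) (by
      intro χ hχ
      have h2 := tau_count hM hB hL (DB_dec hB hL) hχ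
      rw [tau_JB hM hB hχ, hdeg χ hχ] at h2
      have h3 := hz χ hχ
      rw [hΨ1 χ hχ] at h3
      simp_rw [sub_mul]
      rw [Finset.sum_sub_distrib, ← h2]
      simp_rw [mul_assoc]
      rw [← Finset.mul_sum, ← h3, mul_one, sub_self])
  intro i hi
  have h2 := sub_eq_zero.1 (h1 i hi)
  exact_mod_cast h2

end CfsgLib.Star
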