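import Mathlib
import Cfsg.Agent.EqBase
import Cfsg.Agent.LibStar77

/-!
# Star construction, LXXVIII: blocks all of whose characters have the same degree, II (helper18)
-/

set_option autoImplicit false
set_option linter.unusedSectionVars false
set_option linter.style.haveILetI false
set_option linter.unusedSimpArgs false
set_option linter.unusedVariables false

namespace CfsgLib.Star

open Cfsg CfsgLib.GalChar CfsgLib.GalField CfsgLib.BlockReg CfsgLib.BlockReg2 CfsgLib.LocR
  CfsgLib.BrP CfsgLib.Car CfsgLib.BlockQP CfsgLib.BlockDefect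
  CfsgLib.Points CfsgLib.PLocalInd CfsgLib.CharBasic CfsgLib.BlockCore CfsgLib.BlockSec
  CfsgLib.BlockR CfsgLib.BlockIdem CfsgLib.BlockOrth CfsgLib.CharIndA CfsgLib.CharNorm
open scoped ComplexConjugate Pointwise

universe u v

variable {M : Ideal AlgInt} [hPr : M.IsPrime] {G : Type u} [Group G] [Fintype G]
variable {p : ℕ} [hp : Fact p.Prime] [hch : CharP (kM M) p] [hMx : M.IsMaximal]
variable {B : Set (IrrCharacter G)}

theorem dec_idem {A : Type*} [Ring A] {e : A} {L : Finset A} (h : Dec e L) : e * e = e := by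
  conv_lhs => rw [← h.sum]
  rw [Finset.sum_mul, h.sum, Finset.sum_congr rfl fun l hl => h.mul_right hl, h.sum]

/-- splitting a block by dimensions -/
theorem split_comm {k A : Type*} [Field k] [Ring A] [Algebra k A] [FiniteDimensional k A]
    {b ε δ : A} (hb : ∀ a, b * a = a * b) (hε : ε * ε = ε) (hδ : δ * δ = δ)
    (hεδ : ε * δ = 0) (hδε : δ * ε = 0) (hsum : ε + δ = b)
    (hdim : Module.finrank k (cornerSub k b) =
      Module.finrank k (cornerSub k ε) + Module.finrank k (cornerSub k δ)) :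
    ∀ a, a * ε = ε * a := by
  have hbε : b * ε = ε := by rw [← hsum, add_mul, hε, hδε, add_zero]
  have hεb : ε * b = ε := by rw [← hsum, mul_add, hε, hεδ, add_zero]
  have hbδ : b * δ = δ := by rw [← hsum, add_mul, hδ, hεδ, zero_add]
  have hδb : δ * b = δ := by rw [← hsum, mul_add, hδ, hδε, zero_add]
  have hbb : b * b = b := by
    conv_lhs => rw [← hsum]
    rw [add_mul, hsum, hεb, hδb, hsum]
  have hinf : cornerSub k ε ⊓ cornerSub k δ = ⊥ := by
    rw [eq_bot_iff]
    rintro x ⟨hx1, hx2⟩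
    have h1 : Cor ε x := hx1
    have h2 : Cor δ x := hx2
    rw [Submodule.mem_bot, ← h1.1, ← h2.1, ← mul_assoc, hεδ, zero_mul]
  have hle : cornerSub k ε ⊔ cornerSub k δ ≤ cornerSub k b := by
    refine sup_le ?_ ?_
    · intro x hx
      have h1 : Cor ε x := hx
      refine ⟨?_, ?_⟩
      · conv_lhs => rw [← h1.1]
        rw [← mul_assoc, hbε, h1.1]
      · conv_lhs => rw [← h1.2]
        rw [mul_assoc, hεb, h1.2]
    · intro x hx
      have h1 : Cor δ x := hx
      refine ⟨?_, ?_⟩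
      · conv_lhs => rw [← h1.1]
        rw [← mul_assoc, hbδ, h1.1]
      · conv_lhs => rw [← h1.2]
        rw [mul_assoc, hδb, h1.2]
  have hfr : Module.finrank k ↥(cornerSub k ε ⊔ cornerSub k δ) =
      Module.finrank k (cornerSub k b) := by
    have h1 := Submodule.finrank_sup_add_finrank_inf_eq (cornerSub k ε) (cornerSub k δ)
    rw [hinf, finrank_bot, add_zero] at h1
    rw [h1, hdim]
  have heq := Submodule.eq_of_le_of_finrank_eq hle hfr
  intro a
  have h1 : b * a * b ∈ cornerSub k b :=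
    (⟨by rw [← mul_assoc, ← mul_assoc, hbb], by rw [mul_assoc, hbb]⟩ : Cor b (b * a * b))
  rw [← heq] at h1
  obtain ⟨x, hx, y, hy, hxy⟩ := Submodule.mem_sup.1 h1
  have hx' : Cor ε x := hx
  have hy' : Cor δ y := hy
  have e1 : ε * y = 0 := by rw [← hy'.1, ← mul_assoc, hεδ, zero_mul]
  have e2 : y * ε = 0 := by rw [← hy'.2, mul_assoc, hδε, mul_zero]
  have h2 : ε * (b * a * b) = (b * a * b) * ε := by
    rw [← hxy, mul_add, add_mul, e1, e2, hx'.1, hx'.2]
  have h3 : ε * (b * a * b) = ε * a := by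
    calc ε * (b * a * b) = (ε * b) * (a * b) := by simp only [mul_assoc]
      _ = ε * (b * a) := by rw [hεb, hb]
      _ = ε * a := by rw [← mul_assoc, hεb]
  have h4 : (b * a * b) * ε = a * ε := by
    calc (b * a * b) * ε = (b * a) * (b * ε) := by simp only [mul_assoc]
      _ = (a * b) * ε := by rw [hbε, hb]
      _ = a * ε := by rw [mul_assoc, hbε]
  rw [← h4, ← h2, h3]

open Classical in
/-- blocks all of whose characters have the same degree: there is exactly one point -/
theorem eq_deg (hM : IsPModular p M) (hB : IsPBlock M B)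
    {L : Finset (MonoidAlgebra (kM M) G)} (hL : Dec 1 L) {n : ℕ} (hn : 0 < n)
    (hdeg : ∀ χ ∈ B, (χ : G → ℂ) 1 = n) :
    (∀ l ∈ DB M B L, ∀ m ∈ DB M B L, Iso l m) ∧ (DB M B L).card = n ∧
      ∀ l ∈ DB M B L, ∀ χ ∈ B, tau (χ : G → ℂ) 1 l = 1 := by
  have hblk := g_blk hB
  have hD := DB_dec hB hL
  obtain ⟨z, hz⟩ := dim_dvd hM hB hL hn hdeg
  set f : MonoidAlgebra (kM M) G → ℕ := fun i => ((DB M B L).filter fun l => rp L l = i).card
    with hf
  have hPD : ∀ i ∈ PT M B L, i ∈ DB M B L := fun i hi => (PT_spec hB hL hi).1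
  have hid : ∀ l ∈ DB M B L, l * l = l := fun l hl => (hD.prim l hl).idem
  have hN' : ∀ (i : MonoidAlgebra (kM M) G) (χ : IrrCharacter G), ∃ N : ℕ, i ∈ DB M B L →
      tau (χ : G → ℂ) 1 i = N := by
    intro i χ
    by_cases hi : i ∈ DB M B L
    · obtain ⟨N, hN⟩ := tau_nat hM χ (hid i hi)
      exact ⟨N, fun _ => hN⟩
    · exact ⟨0, fun h => absurd h hi⟩
  choose N hN using hN'
  have hsum : ∀ χ ∈ B, n = ∑ i ∈ PT M B L, f i * N i χ := by
    intro χ hχ
    have h2 := tau_count hM hB hL hD hχ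
    rw [tau_JB hM hB hχ, hdeg χ hχ] at h2
    have h3 : (n : ℂ) = ((∑ i ∈ PT M B L, f i * N i χ : ℕ) : ℂ) := by
      rw [h2]
      push_cast
      exact Finset.sum_congr rfl fun i hi => by rw [hN i χ (hPD i hi)]
    exact_mod_cast h3
  have hex : ∀ i ∈ PT M B L, ∃ χ ∈ B, 1 ≤ N i χ := by
    intro i hi
    by_contra hcon
    push Not at hcon
    have h1 := finrank_CA hM (hid i (hPD i hi))
    rw [Finset.sum_eq_zero] at h1
    · have h2 : Module.finrank (kM M) (CA (kM M) (hid i (hPD i hi))) = 0 := by exact_mod_cast h1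
      have h3 : Subsingleton (CA (kM M) (hid i (hPD i hi))) := Module.finrank_zero_iff.1 h2
      have h4 : i = 0 := by
        have h5 : (CA.mk i ⟨hid i (hPD i hi), hid i (hPD i hi)⟩ :
          CA (kM M) (hid i (hPD i hi))) = 0 := Subsingleton.elim _ _
        have h6 := congrArg CA.val h5
        exact h6
      exact (hD.prim i (hPD i hi)).ne h4
    · intro χ _
      by_cases hχ : χ ∈ B
      · rw [hN i χ (hPD i hi)]
        have := hcon χ hχ
        have h0 : N i χ = 0 := by omega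
        rw [h0, Nat.cast_zero]
        norm_num
      · rw [tau_in_out hM hB hL hχ (hPD i hi)]
        norm_num
  have hf1 : ∀ i ∈ PT M B L, f i = n := by
    intro i hi
    obtain ⟨χ, hχ, hN1⟩ := hex i hi
    have h1 : f i * N i χ ≤ n := by
      rw [hsum χ hχ]
      exact Finset.single_le_sum (f := fun i => f i * N i χ) (fun _ _ => Nat.zero_le _) hi
    have h2 : 0 < f i := by
      apply Finset.card_pos.2
      exact ⟨i, Finset.mem_filter.2 ⟨hPD i hi, (PT_spec hB hL hi).2⟩⟩
    have h3 : (f i : ℤ) = n * z i := hz i hi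
    have h4 : f i ≤ n := le_trans (Nat.le_mul_of_pos_right _ hN1) h1
    have h5 : 0 < z i := by
      by_contra h
      push Not at h
      have : (n : ℤ) * z i ≤ 0 := mul_nonpos_of_nonneg_of_nonpos (by positivity) h
      omega
    have h6 : (n : ℤ) ≤ n * z i := by
      have : (0 : ℤ) ≤ n := by positivity
      nlinarith
    omega
  have hsum1 : ∀ χ ∈ B, ∑ i ∈ PT M B L, N i χ = 1 := by
    intro χ hχ
    have h1 := hsum χ hχ
    rw [Finset.sum_congr rfl fun i hi => by rw [hf1 i hi], ← Finset.mul_sum] at h1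
    have h2 : n * 1 = n * ∑ i ∈ PT M B L, N i χ := by rw [mul_one]; exact h1
    exact (Nat.eq_of_mul_eq_mul_left hn h2).symm
  -- connectivity
  obtain ⟨l₀, hl₀⟩ : (DB M B L).Nonempty := by
    rw [Finset.nonempty_iff_ne_empty]
    intro h0
    have := hD.sum
    rw [h0, Finset.sum_empty] at this
    exact hblk.ne this.symm
  obtain ⟨i₀, hi₀⟩ : ∃ i, i = rp L l₀ := ⟨_, rfl⟩
  have hi₀P : i₀ ∈ PT M B L := mem_PT.2 ⟨l₀, hl₀, hi₀.symm⟩
  set S := (DB M B L).filter fun l => rp L l = i₀ with hS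
  set T := (DB M B L).filter fun l => ¬ rp L l = i₀ with hT
  have hSd : Dec (∑ l ∈ S, l) S := ⟨fun l hl => hD.prim l (Finset.mem_filter.1 hl).1,
    fun l hl m hm => hD.orth l (Finset.mem_filter.1 hl).1 m (Finset.mem_filter.1 hm).1, rfl⟩
  have hTd : Dec (∑ l ∈ T, l) T := ⟨fun l hl => hD.prim l (Finset.mem_filter.1 hl).1,
    fun l hl m hm => hD.orth l (Finset.mem_filter.1 hl).1 m (Finset.mem_filter.1 hm).1, rfl⟩
  have hST : ∑ l ∈ S, l + ∑ l ∈ T, l = JB M B := by
    rw [hS, hT, Finset.sum_filter_add_sum_filter_not, hD.sum]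
  have hne : ∀ l ∈ S, ∀ m ∈ T, l ≠ m := by
    intro l hl m hm h
    rw [h] at hl
    exact (Finset.mem_filter.1 hm).2 (Finset.mem_filter.1 hl).2
  have hst0 : (∑ l ∈ S, l) * (∑ l ∈ T, l) = 0 := by
    rw [Finset.sum_mul_sum]
    refine Finset.sum_eq_zero fun l hl => Finset.sum_eq_zero fun m hm => ?_
    exact hD.orth l (Finset.mem_filter.1 hl).1 m (Finset.mem_filter.1 hm).1 (hne l hl m hm)
  have hts0 : (∑ l ∈ T, l) * (∑ l ∈ S, l) = 0 := by
    rw [Finset.sum_mul_sum]
    refine Finset.sum_eq_zero fun l hl => Finset.sum_eq_zero fun m hm => ?_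
    exact hD.orth l (Finset.mem_filter.1 hl).1 m (Finset.mem_filter.1 hm).1 (hne m hm l hl).symm
  have htS : ∀ χ ∈ B, tau (χ : G → ℂ) 1 (∑ l ∈ S, l) = n * N i₀ χ := by
    intro χ hχ
    rw [tau_dec hM (irr_classFun χ.2) hSd]
    have h1 : ∀ l ∈ S, tau (χ : G → ℂ) 1 l = N i₀ χ := by
      intro l hl
      obtain ⟨h2, h3⟩ := Finset.mem_filter.1 hl
      have hpl := hD.prim l h2
      obtain ⟨h4, h5⟩ := rp_spec (kM M) hL hpl
      rw [← tau_isoF hM (irr_classFun χ.2) (hL.prim _ h4).idem hpl.idem h5, h3,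
        hN i₀ χ (hPD i₀ hi₀P)]
    rw [Finset.sum_congr rfl h1, Finset.sum_const, nsmul_eq_mul]
    have h6 : S.card = n := hf1 i₀ hi₀P
    rw [h6]
  have htT : ∀ χ ∈ B, tau (χ : G → ℂ) 1 (∑ l ∈ T, l) = n - n * N i₀ χ := by
    intro χ hχ
    have h1 := tau_add hM (irr_classFun χ.2) (h1G' (p := p)) (fx_one_zp (∑ l ∈ S, l))
      (fx_one_zp (∑ l ∈ T, l)) (dec_idem hSd) (dec_idem hTd) hst0 hts0
    rw [hST, tau_JB hM hB hχ, hdeg χ hχ, htS χ hχ] at h1
    linear_combination -h1
  have hN01 : ∀ χ ∈ B, N i₀ χ = 0 ∨ N i₀ χ = 1 := by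
    intro χ hχ
    have h1 : N i₀ χ ≤ 1 := by
      rw [← hsum1 χ hχ]
      exact Finset.single_le_sum (f := fun i => N i χ) (fun _ _ => Nat.zero_le _) hi₀P
    omega
  have hdim : Module.finrank (kM M) (cornerSub (kM M) (JB M B)) =
      Module.finrank (kM M) (cornerSub (kM M) (∑ l ∈ S, l)) +
        Module.finrank (kM M) (cornerSub (kM M) (∑ l ∈ T, l)) := by
    have h1 := finrank_CA hM hblk.idem
    have h2 := finrank_CA hM (dec_idem hSd)
    have h3 := finrank_CA hM (dec_idem hTd)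
    have h4 : (Module.finrank (kM M) (CA (kM M) hblk.idem) : ℂ) =
        ((Module.finrank (kM M) (CA (kM M) (dec_idem hSd)) +
          Module.finrank (kM M) (CA (kM M) (dec_idem hTd)) : ℕ) : ℂ) := by
      push_cast
      rw [h1, h2, h3, ← Finset.sum_add_distrib]
      refine Finset.sum_congr rfl fun χ _ => ?_
      by_cases hχ : χ ∈ B
      · rw [tau_JB hM hB hχ, hdeg χ hχ, htS χ hχ, htT χ hχ]
        rcases hN01 χ hχ with h | h <;> rw [h] <;> push_cast <;> ring
      · have h5 : ∀ U : Finset (MonoidAlgebra (kM M) G), U ⊆ DB M B L → Dec (∑ l ∈ U, l) U →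
            tau (χ : G → ℂ) 1 (∑ l ∈ U, l) = 0 := by
          intro U hU hd
          rw [tau_dec hM (irr_classFun χ.2) hd]
          exact Finset.sum_eq_zero fun l hl => tau_in_out hM hB hL hχ (hU hl)
        rw [tau_JB_out hM hB hχ, h5 S (Finset.filter_subset _ _) hSd,
          h5 T (Finset.filter_subset _ _) hTd]
        ring
    exact_mod_cast h4
  have hcomm := split_comm (k := kM M) (JB_comm hB) (dec_idem hSd) (dec_idem hTd)
    hst0 hts0 hST hdim
  have hzh : ZH ⊤ (∑ l ∈ S, l) := zh_top_of_comm fun a => hcomm a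
  have hSb : (∑ l ∈ S, l) * JB M B = ∑ l ∈ S, l := by
    rw [← hST, mul_add, dec_idem hSd, hst0, add_zero]
  have hl₀S : l₀ ∈ S := Finset.mem_filter.2 ⟨hl₀, hi₀.symm⟩
  have hSeq : ∑ l ∈ S, l = JB M B := by
    rcases hblk.prim _ hzh (dec_idem hSd) with h | h
    · rw [← hSb, h]
    · exfalso
      rw [hSb] at h
      have h1 := hSd.mul_right hl₀S
      rw [h, mul_zero] at h1
      exact (hD.prim l₀ hl₀).ne h1.symm
  have hall : ∀ l ∈ DB M B L, rp L l = i₀ := by
    intro l hl
    by_contra h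
    have hlT : l ∈ T := Finset.mem_filter.2 ⟨hl, h⟩
    have hT0 : ∑ l ∈ T, l = 0 := by
      have h1 := hST
      rw [hSeq] at h1
      exact add_eq_left.1 h1
    have h1 := hTd.mul_right hlT
    rw [hT0, mul_zero] at h1
    exact (hD.prim l hl).ne h1.symm
  have hiso : ∀ l ∈ DB M B L, Iso i₀ l := by
    intro l hl
    have h1 := (rp_spec (kM M) hL (hD.prim l hl)).2
    rwa [hall l hl] at h1
  refine ⟨fun l hl m hm => (hiso l hl).symm.trans (hiso m hm), ?_, ?_⟩
  · rw [← hf1 i₀ hi₀P]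
    show _ = ((DB M B L).filter fun l => rp L l = i₀).card
    rw [Finset.filter_true_of_mem hall]
  · intro l hl χ hχ
    rw [← tau_isoF hM (irr_classFun χ.2) (hid _ (hPD _ hi₀P)) (hid l hl) (hiso l hl),
      hN i₀ χ (hPD i₀ hi₀P)]
    have h1 := hsum1 χ hχ
    have h2 : PT M B L = {i₀} := by
      ext i
      rw [Finset.mem_singleton, mem_PT]
      constructor
      · rintro ⟨m, hm, rfl⟩; exact hall m hm
      · rintro rfl; exact ⟨l₀, hl₀, hi₀.symm⟩
    rw [h2, Finset.sum_singleton] at h1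
    rw [h1, Nat.cast_one]

end CfsgLib.Star
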