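import Mathlib
import Cfsg.Agent.EqBase
import Cfsg.Agent.LibStar78

/-!
# Star construction, LXXIX: divisibility of column products in a block with one point (helper18)
-/

set_option autoImplicit false
set_option linter.unusedSectionVars false
set_option linter.style.haveILetI false
set_option linter.unusedSimpArgs false
set_option linter.unusedVariables false

namespace CfsgLib.Star

open Cfsg CfsgLib.GalChar CfsgLib.GalField CfsgLib.BlockReg CfsgLib.BlockReg2 CfsgLib.LocR
  CfsgLib.BrP CfsgLib.Car CfsgLib.BlockQP CfsgLib.BlockDefect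
  CfsgLib.Points CfsgLib.PLocalInd CfsgLib.CharBasic CfsgLib.BlockCore CfsgLib.BlockSec
  CfsgLib.BlockR CfsgLib.BlockIdem CfsgLib.BlockOrth CfsgLib.CharIndA CfsgLib.CharNorm
open scoped ComplexConjugate Pointwise

universe u v

section Lin

variable {V : Type*} [AddCommGroup V] [Module ℂ V] [FiniteDimensional ℂ V]

theorem trace_idem (E : V →ₗ[ℂ] V) (hE : E * E = E) :
    LinearMap.trace ℂ V E = Module.finrank ℂ (LinearMap.range E) := by
  have h : LinearMap.IsProj (LinearMap.range E) E := by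
    refine ⟨fun x => ⟨x, rfl⟩, ?_⟩
    rintro _ ⟨y, rfl⟩
    exact LinearMap.congr_fun hE y
  exact h.trace

theorem idem_zero (E : V →ₗ[ℂ] V) (hE : E * E = E) (h0 : LinearMap.trace ℂ V E = 0) : E = 0 := by
  rw [trace_idem E hE] at h0
  have h1 : Module.finrank ℂ (LinearMap.range E) = 0 := by exact_mod_cast h0
  rw [Submodule.finrank_eq_zero] at h1
  exact LinearMap.range_eq_bot.1 h1

theorem idem_one (E : V →ₗ[ℂ] V) (hE : E * E = E) (h0 : LinearMap.trace ℂ V E = 1)
    (A : V →ₗ[ℂ] V) : E * A * E = (LinearMap.trace ℂ V (E * A * E)) • E := by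
  have h1 : Module.finrank ℂ (LinearMap.range E) = 1 := by
    rw [trace_idem E hE] at h0; exact_mod_cast h0
  obtain ⟨⟨v, hv⟩, hv0, hspan⟩ := finrank_eq_one_iff'.1 h1
  have hw : ∀ w, ∃ c : ℂ, E w = c • v := by
    intro w
    obtain ⟨c, hc⟩ := hspan ⟨E w, w, rfl⟩
    exact ⟨c, (congrArg Subtype.val hc).symm⟩
  obtain ⟨d, hd⟩ := hw (A v)
  have h2 : E * A * E = d • E := by
    ext w
    obtain ⟨c, hc⟩ := hw w
    show E (A (E w)) = d • E w
    rw [hc, map_smul, map_smul, hd, smul_smul, smul_smul, mul_comm]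
  have h3 : LinearMap.trace ℂ V (E * A * E) = d := by
    rw [h2, map_smul, h0, smul_eq_mul, mul_one]
  rw [h3]
  exact h2

end Lin

variable {M : Ideal AlgInt} [hPr : M.IsPrime] {G : Type u} [Group G] [Fintype G]
variable {p : ℕ} [hp : Fact p.Prime] [hch : CharP (kM M) p] [hMx : M.IsMaximal]
variable {B : Set (IrrCharacter G)}

/-- evaluation of a class function on the group ring -/
noncomputable def XX (χ : G → ℂ) (a : RG M G) : ℂ := ∑ w : G, (a.coeff w : ℂ) * χ w

theorem XX_add (χ : G → ℂ) (a b : RG M G) : XX χ (a + b) = XX χ a + XX χ b := by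
  unfold XX
  rw [← Finset.sum_add_distrib]
  refine Finset.sum_congr rfl fun w _ => ?_
  show ((a.coeff w + b.coeff w : LocR.subring M) : ℂ) * χ w = _
  push_cast; ring

theorem XX_zero (χ : G → ℂ) : XX χ (0 : RG M G) = 0 := by
  unfold XX
  refine Finset.sum_eq_zero fun w _ => ?_
  show ((0 : LocR.subring M) : ℂ) * χ w = 0
  rw [ZeroMemClass.coe_zero, zero_mul]

theorem XX_sum (χ : G → ℂ) {ι : Type*} (s : Finset ι) (f : ι → RG M G) :
    XX χ (∑ i ∈ s, f i) = ∑ i ∈ s, XX χ (f i) := by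
  classical
  induction s using Finset.induction_on with
  | empty => rw [Finset.sum_empty, Finset.sum_empty, XX_zero]
  | insert a s ha ih => rw [Finset.sum_insert ha, Finset.sum_insert ha, XX_add, ih]

theorem exists_op (M : Ideal AlgInt) [hPr : M.IsPrime] {G : Type u} [Group G] [Fintype G]
    (χ : IrrCharacter G) : ∃ (n : ℕ)
    (op : RG M G → ((Fin n → ℂ) →ₗ[ℂ] (Fin n → ℂ))), (∀ a b, op (a * b) = op a * op b) ∧
      ∀ a, LinearMap.trace ℂ _ (op a) = XX (χ : G → ℂ) a := by
  obtain ⟨n, ρ, hρ⟩ := CfsgLib.CharInt.irr_isCharacter χ.2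
  refine ⟨n, fun b => ∑ w : G, (b.coeff w : ℂ) • ρ w, ?_, ?_⟩
  · intro b c
    have e1 : ∀ w : G, ((b * c).coeff w : ℂ) • ρ w =
        ∑ x : G, ((b.coeff x : ℂ) * (c.coeff (x⁻¹ * w) : ℂ)) • ρ w := by
      intro w
      rw [rmul_coeff]
      push_cast
      rw [Finset.sum_smul]
    simp_rw [e1]
    rw [Finset.sum_comm, Finset.sum_mul_sum]
    refine Finset.sum_congr rfl fun x _ => ?_
    rw [← Equiv.sum_comp (Equiv.mulLeft x)]
    refine Finset.sum_congr rfl fun y _ => ?_
    simp only [Equiv.coe_mulLeft, inv_mul_cancel_left, map_mul]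
    rw [smul_mul_smul_comm]
  · intro a
    unfold XX
    rw [map_sum]
    refine Finset.sum_congr rfl fun w _ => ?_
    rw [map_smul, smul_eq_mul, ← hρ]
    rfl

theorem XX_comm (χ : IrrCharacter G) (a b : RG M G) :
    XX (χ : G → ℂ) (a * b) = XX (χ : G → ℂ) (b * a) := by
  obtain ⟨n, op, h1, h2⟩ := exists_op M χ
  rw [← h2, ← h2, h1, h1, LinearMap.trace_mul_comm]

theorem XX_zero_of (χ : IrrCharacter G) {e : RG M G} (he : e * e = e)
    (h0 : XX (χ : G → ℂ) e = 0) (a : RG M G) : XX (χ : G → ℂ) (e * a) = 0 := by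
  obtain ⟨n, op, h1, h2⟩ := exists_op M χ
  rw [← h2, h1]
  have h3 := idem_zero (op e) (by rw [← h1, he]) (by rw [h2, h0])
  rw [h3, zero_mul, map_zero]

theorem XX_mul_of (χ : IrrCharacter G) {e : RG M G} (he : e * e = e)
    (h0 : XX (χ : G → ℂ) e = 1) (a b : RG M G) : XX (χ : G → ℂ) (e * a * e * (e * b * e)) =
      XX (χ : G → ℂ) (e * a * e) * XX (χ : G → ℂ) (e * b * e) := by
  obtain ⟨n, op, h1, h2⟩ := exists_op M χ
  have hE : op e * op e = op e := by rw [← h1, he]
  have hT : LinearMap.trace ℂ _ (op e) = 1 := by rw [h2, h0]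
  have h3 := idem_one (op e) hE hT (op a)
  have h4 := idem_one (op e) hE hT (op b)
  rw [← h2, ← h2, ← h2]
  simp only [h1]
  rw [h3, h4, smul_mul_smul_comm, hE, map_smul, map_smul, map_smul, hT]
  simp only [smul_eq_mul, mul_one]

/-- elements of the group ring which are one modulo `M` are invertible -/
theorem exists_inv {w : RG M G} (h : red M G w = 1) : ∃ u : RG M G, w * u = 1 := by
  classical
  let W : Matrix G G (LocR.subring M) := fun x y => w.coeff (x * y⁻¹)
  have h1 : W.map (IsLocalRing.residue (LocR.subring M)) = 1 := by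
    ext x y
    rw [Matrix.map_apply, ← red_coeff, h, rone_coeff, Matrix.one_apply]
    by_cases hxy : x = y
    · rw [if_pos hxy, if_pos (by rw [hxy, mul_inv_cancel])]
    · rw [if_neg hxy, if_neg (fun h' => hxy (mul_inv_eq_one.1 h'))]
  have h2 : IsUnit W.det := by
    rw [← IsLocalRing.residue_ne_zero_iff_isUnit, RingHom.map_det, RingHom.mapMatrix_apply, h1,
      Matrix.det_one]
    exact one_ne_zero
  have h3 := Matrix.mul_nonsing_inv W h2
  refine ⟨rmk fun y => W⁻¹ y 1, ?_⟩
  apply rext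
  intro x
  rw [rmul_coeff', rone_coeff]
  have h4 : ∑ y : G, w.coeff (x * y⁻¹) * (rmk fun y => W⁻¹ y 1 : RG M G).coeff y =
      (W * W⁻¹) x 1 := rfl
  rw [h4, h3, Matrix.one_apply]

open Classical in
/-- the integrality of the column products -/
theorem col_ring (hM : IsPModular p M) (hB : IsPBlock M B)
    {L : Finset (MonoidAlgebra (kM M) G)} (hL : Dec 1 L) {n : ℕ} (hn : 0 < n)
    (hdeg : ∀ χ ∈ B, (χ : G → ℂ) 1 = n) (g h : G) :
    MemLocalRing M ((n : ℂ) / (Nat.card G : ℂ) *
      ∑ χ : IrrCharacter G, ind B χ * ((χ : G → ℂ) g * (χ : G → ℂ) h)) := by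
  have hblk := g_blk hB
  have hD := DB_dec hB hL
  obtain ⟨hiso, hcard, htau⟩ := eq_deg hM hB hL hn hdeg
  obtain ⟨e, he⟩ : (DB M B L).Nonempty := by
    rw [← Finset.card_pos, hcard]; exact hn
  have hpe := hD.prim e he
  obtain ⟨E, hEE, hEr⟩ := ex_lift hpe.idem
  have hXE : ∀ χ ∈ B, XX (χ : G → ℂ) E = 1 := by
    intro χ hχ
    have h1 := tau_tv hM (irr_classFun χ.2) hEE
    rw [hEr, htau e he χ hχ] at h1
    exact h1.symm
  have hXE0 : ∀ χ : IrrCharacter G, χ ∉ B → XX (χ : G → ℂ) E = 0 := by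
    intro χ hχ
    have h1 := tau_tv hM (irr_classFun χ.2) hEE
    rw [hEr, tau_in_out hM hB hL hχ he] at h1
    exact h1.symm
  obtain ⟨b, hbb, hbf, hbr, hbc⟩ := exists_EB hB
  -- fullness
  have hlift : ∀ x : MonoidAlgebra (kM M) G, ∃ a : RG M G, red M G a = x := by
    intro x
    obtain ⟨a, _, ha⟩ := exists_lift_elt (S := Subgroup.zpowers (1 : G)) (fx_one_zp x)
    exact ⟨a, ha⟩
  choose x y h1 h2 h3 h4 h5 h6 using fun l : {l // l ∈ DB M B L} => hiso e he l l.2
  choose X hX using fun l : {l // l ∈ DB M B L} => hlift (x l)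
  choose Y hY using fun l : {l // l ∈ DB M B L} => hlift (y l)
  set w : RG M G := ∑ l : {l // l ∈ DB M B L}, Y l * E * X l with hw
  have hwr : red M G w = JB M B := by
    rw [hw, map_sum]
    have e1 : ∀ l : {l // l ∈ DB M B L}, red M G (Y l * E * X l) = l := by
      intro l
      rw [map_mul, map_mul, hX, hY, hEr, mul_assoc, h1, h6]
    rw [Finset.sum_congr rfl fun l _ => e1 l, Finset.sum_coe_sort (DB M B L) (fun l => l), hD.sum]
  obtain ⟨u, hu⟩ := exists_inv (w := w + (1 - b)) (by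
    rw [map_add, map_sub, map_one, hwr, hbr]; abel)
  have hbw : b = b * w * u := by
    calc b = b * ((w + (1 - b)) * u) := by rw [hu, mul_one]
      _ = (b * w + (b - b * b)) * u := by rw [← mul_assoc, mul_add, mul_sub, mul_one]
      _ = b * w * u := by rw [hbb, sub_self, add_zero]
  -- the elements
  have hel : ∀ g : G, ∃ A : RG M G, ∀ χ ∈ B, XX (χ : G → ℂ) (E * A * E) = (χ : G → ℂ) g := by
    intro g
    refine ⟨∑ l : {l // l ∈ DB M B L}, X l * u * MonoidAlgebra.single g 1 * b * Y l,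
      fun χ hχ => ?_⟩
    have e1 : (χ : G → ℂ) g = XX (χ : G → ℂ) (b * MonoidAlgebra.single g 1) := by
      rw [← bpart_irr hχ g, ← sum_coeff_mul B (CfsgLib.CharInt.irr_classFun χ.2) g]
      unfold XX
      rw [← Equiv.sum_comp (Equiv.mulRight g) (fun w =>
        (((b * MonoidAlgebra.single g 1 : RG M G).coeff w : LocR.subring M) : ℂ) *
          (χ : G → ℂ) w)]
      refine Finset.sum_congr rfl fun v _ => ?_
      show _ = (((b * MonoidAlgebra.single g 1 : RG M G).coeff (v * g) : LocR.subring M) : ℂ) *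
        (χ : G → ℂ) (v * g)
      rw [← hbc, rmul_coeff']
      congr 2
      rw [Finset.sum_eq_single g]
      · rw [MonoidAlgebra.coeff_single, Finsupp.single_eq_same, mul_one, mul_inv_cancel_right]
      · intro z _ hz
        rw [MonoidAlgebra.coeff_single, Finsupp.single_apply, if_neg (Ne.symm hz), mul_zero]
      · intro h; exact absurd (Finset.mem_univ _) h
    have e2 : b * MonoidAlgebra.single g 1 =
        ∑ l : {l // l ∈ DB M B L}, (b * Y l * E) * (E * X l * u * MonoidAlgebra.single g 1) := by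
      conv_lhs => rw [hbw]
      rw [hw, Finset.mul_sum, Finset.sum_mul, Finset.sum_mul]
      refine Finset.sum_congr rfl fun l _ => ?_
      calc b * (Y l * E * X l) * u * MonoidAlgebra.single g 1 =
          b * Y l * E * X l * u * MonoidAlgebra.single g 1 := by simp only [mul_assoc]
        _ = b * Y l * (E * E) * X l * u * MonoidAlgebra.single g 1 := by rw [hEE]
        _ = _ := by simp only [mul_assoc]
    rw [e1, e2, XX_sum, Finset.mul_sum, Finset.sum_mul, XX_sum]
    refine Finset.sum_congr rfl fun l _ => ?_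
    rw [XX_comm χ (b * Y l * E)]
    simp only [mul_assoc]
  obtain ⟨A, hA⟩ := hel g
  obtain ⟨A', hA'⟩ := hel h
  have hG0 : (Nat.card G : ℂ) ≠ 0 := by exact_mod_cast Nat.card_pos.ne'
  set c : RG M G := E * A * E * (E * A' * E) with hc
  have hsum : (Nat.card G : ℂ) * (c.coeff 1 : ℂ) =
      ∑ χ : IrrCharacter G, (χ : G → ℂ) 1 * XX (χ : G → ℂ) c := by
    have e1 : ∀ χ : IrrCharacter G, (χ : G → ℂ) 1 * XX (χ : G → ℂ) c =
        ∑ w : G, (c.coeff w : ℂ) * ((χ : G → ℂ) 1 * (χ : G → ℂ) w) := by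
      intro χ
      unfold XX
      rw [Finset.mul_sum]
      refine Finset.sum_congr rfl fun w _ => by ring
    simp_rw [e1]
    rw [Finset.sum_comm, Finset.sum_eq_single (1 : G)]
    · rw [← Finset.mul_sum]
      have e2 := column_orthogonality (G := G) 1 1
      rw [if_pos (IsConj.refl _)] at e2
      have e3 : ∀ χ : IrrCharacter G, (χ : G → ℂ) 1 * (χ : G → ℂ) 1 =
          (χ : G → ℂ) 1 * conj ((χ : G → ℂ) 1) := by
        intro χ
        rw [CfsgLib.CharInt.irr_one_eq_charDegree χ.2, Complex.conj_natCast]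
      simp_rw [e3]
      rw [e2]
      have e4 : Subgroup.centralizer ({(1 : G)} : Set G) = ⊤ := by
        rw [eq_top_iff]
        intro z _
        rw [Subgroup.mem_centralizer_singleton_iff]
        simp
      rw [e4, Subgroup.card_top, mul_comm]
    · intro z _ hz
      rw [← Finset.mul_sum, sum_degree_mul z hz, mul_zero]
    · intro h; exact absurd (Finset.mem_univ _) h
  have hval : ∀ χ : IrrCharacter G, (χ : G → ℂ) 1 * XX (χ : G → ℂ) c =
      (n : ℂ) * (ind B χ * ((χ : G → ℂ) g * (χ : G → ℂ) h)) := by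
    intro χ
    by_cases hχ : χ ∈ B
    · rw [ind_of hχ, hdeg χ hχ, hc, XX_mul_of χ hEE (hXE χ hχ), hA χ hχ, hA' χ hχ, one_mul]
    · have e1 : c = E * (A * E * (E * A' * E)) := by rw [hc]; simp only [mul_assoc]
      rw [ind_not hχ, e1, XX_zero_of χ hEE (hXE0 χ hχ)]
      ring
  have hfin : (n : ℂ) / (Nat.card G : ℂ) *
      ∑ χ : IrrCharacter G, ind B χ * ((χ : G → ℂ) g * (χ : G → ℂ) h) = (c.coeff 1 : ℂ) := by
    have e1 := hsum
    simp_rw [hval] at e1
    rw [← Finset.mul_sum] at e1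
    rw [div_mul_eq_mul_div, ← e1]
    field_simp
  rw [hfin]
  exact (c.coeff 1).2

end CfsgLib.Star
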