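import Mathlib
import Cfsg.Agent.EqBase
import Cfsg.Agent.LibStar79

/-!
# Star construction, LXXX: blocks with divisible kernel have rank one (helper18)
-/

set_option autoImplicit false
set_option linter.unusedSectionVars false
set_option linter.style.haveILetI false
set_option linter.unusedSimpArgs false
set_option linter.unusedVariables false

namespace CfsgLib.Star

open Cfsg CfsgLib.GalChar CfsgLib.GalField CfsgLib.BlockReg CfsgLib.BlockReg2 CfsgLib.LocR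
  CfsgLib.BrP CfsgLib.Car CfsgLib.BlockQP CfsgLib.BlockDefect
  CfsgLib.Points CfsgLib.PLocalInd CfsgLib.CharBasic CfsgLib.BlockCore CfsgLib.BlockSec
  CfsgLib.BlockR CfsgLib.BlockIdem CfsgLib.BlockOrth CfsgLib.CharIndA CfsgLib.CharNorm CfsgLib.BlockM
open scoped ComplexConjugate Pointwise

universe u v

variable {M : Ideal AlgInt} [hPr : M.IsPrime] {G : Type u} [Group G] [Fintype G]
variable {p : ℕ} [hp : Fact p.Prime] [hch : CharP (kM M) p] [hMx : M.IsMaximal]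
variable {B : Set (IrrCharacter G)}

theorem mm_congr (hM : IsPModular p M) (hB : IsPBlock M B) {χ ψ ψ₀ : IrrCharacter G}
    (hχ : χ ∈ B) (hψ : ψ ∈ B) (h0 : ψ₀ ∈ B) :
    MemLocalIdeal M ((mm p B χ ψ : ℂ) - ((ψ : G → ℂ) 1 / (ψ₀ : G → ℂ) 1) * mm p B χ ψ₀) := by
  have hpp := isPrime_of_modular hM
  have h1 := inner_div_congr hM χ (sameBlock_of_mem hpp hB hψ h0)
  rw [ci_smul_l, cc_spec, ci_smul_l, cc_spec, cc_eq hM hB hχ ψ, cc_eq hM hB hχ ψ₀] at h1
  have hdeg := degree_eq hM hB hψ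
  have hda := defect_le p B
  have hd0 : charDegree (ψ : G → ℂ) ≠ 0 := (CfsgLib.CharInt.irr_charDegree_pos ψ.2).ne'
  have h2 : p ^ ((Nat.card G).factorization p - blockDefect p B) ∣ charDegree (ψ : G → ℂ) := by
    rw [Nat.Prime.pow_dvd_iff_le_factorization hp.out hd0]
    omega
  obtain ⟨m, hm⟩ := h2
  have h3 := memI_mul_left (memR_natCast (M := M) m) h1
  have e1 : (m : ℂ) * ((((p ^ ((Nat.card G).factorization p - blockDefect p B) : ℕ) * mm p B χ ψ :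
      ℤ) : ℂ) / (charDegree (ψ : G → ℂ) : ℂ) -
      (((p ^ ((Nat.card G).factorization p - blockDefect p B) : ℕ) * mm p B χ ψ₀ :
      ℤ) : ℂ) / (charDegree (ψ₀ : G → ℂ) : ℂ)) =
      (mm p B χ ψ : ℂ) - ((ψ : G → ℂ) 1 / (ψ₀ : G → ℂ) 1) * mm p B χ ψ₀ := by
    rw [CfsgLib.CharInt.irr_one_eq_charDegree ψ.2, CfsgLib.CharInt.irr_one_eq_charDegree ψ₀.2, hm]
    have hq : ((p ^ ((Nat.card G).factorization p - blockDefect p B) : ℕ) : ℂ) ≠ 0 := by
      exact_mod_cast (pow_pos hp.out.pos _).ne'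
    have hm0 : (m : ℂ) ≠ 0 := by
      rintro h
      have : m = 0 := by exact_mod_cast h
      rw [this, mul_zero] at hm
      exact hd0 hm
    have hψ0 : (charDegree (ψ₀ : G → ℂ) : ℂ) ≠ 0 := by
      exact_mod_cast (CfsgLib.CharInt.irr_charDegree_pos ψ₀.2).ne'
    push_cast at hq ⊢
    field_simp
  rw [e1] at h3
  exact h3

theorem c_ring (hM : IsPModular p M) (hB : IsPBlock M B) {ψ ψ₀ : IrrCharacter G}
    (hψ : ψ ∈ B) (h0 : ψ₀ ∈ B) (hh : blockHeight p B (ψ₀ : G → ℂ) = 0) :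
    MemLocalRing M ((ψ : G → ℂ) 1 / (ψ₀ : G → ℂ) 1) := by
  rw [CfsgLib.CharInt.irr_one_eq_charDegree ψ.2, CfsgLib.CharInt.irr_one_eq_charDegree ψ₀.2]
  have h1 := degree_eq hM hB hψ
  have h2 := degree_eq hM hB h0
  refine (ring_div_nat_iff hM (CfsgLib.CharInt.irr_charDegree_pos ψ.2).ne' (CfsgLib.CharInt.irr_charDegree_pos ψ₀.2).ne').2 ?_
  omega

open Classical in
/-- the reproducing formula -/
theorem repro (hM : IsPModular p M) (hB : IsPBlock M B)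
    (hK : ∀ s h : G, ¬ p ∣ orderOf s → ¬ p ∣ orderOf h →
      MemLocalRing M (((p ^ blockDefect p B : ℕ) : ℂ)⁻¹ * KK B s h))
    {s : G} (hs : ¬ p ∣ orderOf s) : ∃ r : IrrCharacter G → ℂ, (∀ χ, MemLocalRing M (r χ)) ∧
      ∀ ψ ∈ B, (ψ : G → ℂ) s = ∑ χ : IrrCharacter G, r χ * (mm p B ψ χ : ℂ) := by
  set q : ℂ := ((p ^ blockDefect p B : ℕ) : ℂ) with hq
  have hq0 : q ≠ 0 := by
    rw [hq]; exact_mod_cast (pow_pos hp.out.pos _).ne'
  let Gs : G → ℂ := fun h => q⁻¹ * ∑ χ : IrrCharacter G, ind B χ * ((χ : G → ℂ) s * (χ : G → ℂ) h)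
  have hGcf : IsClassFunction G Gs := by
    intro g h
    show q⁻¹ * _ = q⁻¹ * _
    congr 1
    exact Finset.sum_congr rfl fun χ _ => by rw [irr_classFun χ.2 g h]
  have hGK : ∀ h, Gs h = q⁻¹ * KK B s h⁻¹ := by
    intro h
    show q⁻¹ * _ = _
    unfold KK
    congr 1
    refine Finset.sum_congr rfl fun χ _ => ?_
    rw [irr_inv χ.2, Complex.conj_conj]
  have hR : ∀ x, MemLocalRing M (hat p Gs x) := by
    intro x
    obtain ⟨t, ht1, ht2, ht3, ht4⟩ := pp_spec (p := p) x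
    have e1 : (pp p x)⁻¹ * x = t := by rw [inv_mul_eq_iff_eq_mul]; exact ht1.symm
    unfold hat
    rw [e1, hGK]
    exact hK s t⁻¹ hs (by rw [orderOf_inv]; exact ht4)
  have hsec : SecConst p (hat p Gs) := by
    intro x u hc hx hu
    rw [hat_mul Gs hu hx hc.eq, hat_reg Gs hx]
  have hRC := rcomb_of_secConst hM (hat_cf hGcf) hR hsec
  refine ⟨fun χ => classInner (hat p Gs) (χ : G → ℂ), hRC.2, fun ψ hψ => ?_⟩
  have hG0 : (Nat.card G : ℂ) ≠ 0 := by exact_mod_cast Nat.card_pos.ne'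
  have hinn : ∀ χ : IrrCharacter G, (mm p B ψ χ : ℂ) =
      q * ((Nat.card G : ℂ)⁻¹ * ∑ h : G, reg p (ψ : G → ℂ) h * conj ((χ : G → ℂ) h)) := by
    intro χ
    rw [← mm_spec hM hB hψ χ]
    rfl
  have h1 : (ψ : G → ℂ) s = ∑ χ : IrrCharacter G,
      (q⁻¹ * (mm p B ψ χ : ℂ)) * (χ : G → ℂ) s := by
    have h2 := classFun_expand_apply (reg_classFun (p := p) (irr_classFun ψ.2)) s
    rw [reg_of hs] at h2
    rw [h2]
    refine Finset.sum_congr rfl fun χ _ => ?_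
    rw [← mm_spec hM hB hψ χ, ← mul_assoc, inv_mul_cancel₀ hq0, one_mul]
  have h2 : (ψ : G → ℂ) s = (Nat.card G : ℂ)⁻¹ * ∑ h : G, reg p (ψ : G → ℂ) h *
      (q * Gs h⁻¹) := by
    rw [h1]
    have e1 : ∀ χ : IrrCharacter G, (q⁻¹ * (mm p B ψ χ : ℂ)) * (χ : G → ℂ) s =
        ∑ h : G, (Nat.card G : ℂ)⁻¹ * (reg p (ψ : G → ℂ) h *
          (ind B χ * ((χ : G → ℂ) s * (χ : G → ℂ) h⁻¹))) := by
      intro χ
      by_cases hχ : χ ∈ B
      · rw [hinn χ, ← mul_assoc, inv_mul_cancel₀ hq0, one_mul, ind_of hχ, mul_assoc,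
          Finset.sum_mul, Finset.mul_sum]
        refine Finset.sum_congr rfl fun h _ => ?_
        rw [irr_inv χ.2]; ring
      · rw [mm_out hM hB hψ hχ, ind_not hχ]
        simp
    rw [Finset.sum_congr rfl fun χ _ => e1 χ, Finset.sum_comm, Finset.mul_sum]
    refine Finset.sum_congr rfl fun h _ => ?_
    rw [← Finset.mul_sum, ← Finset.mul_sum]
    show _ = (Nat.card G : ℂ)⁻¹ * (reg p (ψ : G → ℂ) h * (q * (q⁻¹ * _)))
    rw [← mul_assoc q, mul_inv_cancel₀ hq0, one_mul]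
  rw [h2]
  have e2 : ∀ h : G, reg p (ψ : G → ℂ) h * (q * Gs h⁻¹) =
      ∑ χ : IrrCharacter G, q * (classInner (hat p Gs) (χ : G → ℂ) *
        (reg p (ψ : G → ℂ) h * conj ((χ : G → ℂ) h))) := by
    intro h
    by_cases hh : p ∣ orderOf h
    · rw [CfsgLib.BlockReg2.reg_not hh, zero_mul]
      symm
      exact Finset.sum_eq_zero fun χ _ => by rw [zero_mul, mul_zero, mul_zero]
    · have hh' : ¬ p ∣ orderOf h⁻¹ := by rw [orderOf_inv]; exact hh
      rw [← hat_reg (p := p) Gs hh', classFun_expand_apply (hat_cf (p := p) hGcf) h⁻¹,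
        Finset.mul_sum, Finset.mul_sum]
      refine Finset.sum_congr rfl fun χ _ => ?_
      rw [irr_inv χ.2]; ring
  rw [Finset.sum_congr rfl fun h _ => e2 h, Finset.sum_comm, Finset.mul_sum]
  refine Finset.sum_congr rfl fun χ _ => ?_
  rw [hinn χ, ← Finset.mul_sum, ← Finset.mul_sum]
  ring

theorem F_small (hM : IsPModular p M) (hB : IsPBlock M B)
    (hK : ∀ s h : G, ¬ p ∣ orderOf s → ¬ p ∣ orderOf h →
      MemLocalRing M (((p ^ blockDefect p B : ℕ) : ℂ)⁻¹ * KK B s h))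
    {ψ ψ₀ : IrrCharacter G} (hψ : ψ ∈ B) (h0 : ψ₀ ∈ B)
    (hh : blockHeight p B (ψ₀ : G → ℂ) = 0) (g : G) :
    MemLocalIdeal M ((ψ : G → ℂ) g - ((ψ : G → ℂ) 1 / (ψ₀ : G → ℂ) 1) * (ψ₀ : G → ℂ) g) := by
  set c : ℂ := (ψ : G → ℂ) 1 / (ψ₀ : G → ℂ) 1 with hc
  have hcR : MemLocalRing M c := c_ring hM hB hψ h0 hh
  have hreg : ∀ s : G, ¬ p ∣ orderOf s →
      MemLocalIdeal M ((ψ : G → ℂ) s - c * (ψ₀ : G → ℂ) s) := by
    intro s hs
    obtain ⟨r, hr, hexp⟩ := repro hM hB hK hs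
    have h1 : (ψ : G → ℂ) s - c * (ψ₀ : G → ℂ) s = ∑ χ : IrrCharacter G,
        r χ * ((mm p B ψ χ : ℂ) - c * mm p B ψ₀ χ) := by
      rw [hexp ψ hψ, hexp ψ₀ h0, Finset.mul_sum, ← Finset.sum_sub_distrib]
      refine Finset.sum_congr rfl fun χ _ => by ring
    rw [h1]
    refine memI_sum fun χ _ => memI_mul_left (hr χ) ?_
    by_cases hχ : χ ∈ B
    · have h2 := mm_congr hM hB hχ hψ h0
      rw [mm_symm χ ψ, mm_symm χ ψ₀] at h2
      exact h2
    · rw [mm_out hM hB hψ hχ, mm_out hM hB h0 hχ, Int.cast_zero, mul_zero, sub_zero]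
      exact memI_zero
  obtain ⟨t, ht1, ht2, ht3, ht4⟩ := pp_spec (p := p) g
  have h1 := char_congr hM (CfsgLib.CharInt.irr_isCharacter ψ.2) ht2 ht3
  have h2 := char_congr hM (CfsgLib.CharInt.irr_isCharacter ψ₀.2) ht2 ht3
  rw [ht1] at h1 h2
  have h3 := memI_add h1 (memI_sub (hreg t ht4) (memI_mul_left hcR h2))
  have e : (ψ : G → ℂ) g - (ψ : G → ℂ) t + ((ψ : G → ℂ) t - c * (ψ₀ : G → ℂ) t -
      c * ((ψ₀ : G → ℂ) g - (ψ₀ : G → ℂ) t)) = (ψ : G → ℂ) g - c * (ψ₀ : G → ℂ) g := by ring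
  rw [e] at h3
  exact h3

/-- blocks with divisible kernel have rank one -/
theorem rank_one_of_KK (hM : IsPModular p M) (hB : IsPBlock M B)
    (hK : ∀ s h : G, ¬ p ∣ orderOf s → ¬ p ∣ orderOf h →
      MemLocalRing M (((p ^ blockDefect p B : ℕ) : ℂ)⁻¹ * KK B s h)) :
    blockRank p B = 1 := by
  classical
  obtain ⟨L, hL⟩ := exists_dec (kM M) (A := MonoidAlgebra (kM M) G) (e := 1) (one_mul 1)
  have hD := DB_dec hB hL
  obtain ⟨ψ₀, h0, h0'⟩ := exists_height_zero hM hB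
  have hh : blockHeight p B (ψ₀ : G → ℂ) = 0 := (height_zero_iff hM hB h0).2 h0'
  have hrd : ∀ l ∈ DB M B L, ∀ ψ ∈ B, rd M (tau (ψ : G → ℂ) 1 l) =
      rd M ((ψ : G → ℂ) 1 / (ψ₀ : G → ℂ) 1) * rd M (tau (ψ₀ : G → ℂ) 1 l) := by
    intro l hl ψ hψ
    have hll := (hD.prim l hl).idem
    have hcR := c_ring hM hB hψ h0 hh
    rw [rd_tau hM ψ hll, rd_tau hM ψ₀ hll, Finset.mul_sum]
    refine Finset.sum_congr rfl fun x _ => ?_
    have h1 : rd M ((ψ : G → ℂ) x) =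
        rd M (((ψ : G → ℂ) 1 / (ψ₀ : G → ℂ) 1) * (ψ₀ : G → ℂ) x) :=
      (rd_eq_iff (irr_ring hPr ψ x) (memR_mul hcR (irr_ring hPr ψ₀ x))).2
        (F_small hM hB hK hψ h0 hh x)
    rw [h1, rd_mul hcR (irr_ring hPr ψ₀ x)]
    ring
  have hiso : ∀ l ∈ DB M B L, ∀ m ∈ DB M B L, Iso l m := by
    intro l hl m hm
    by_contra hn
    obtain ⟨a, ha0, ha⟩ := key_fun hM hB hL hl
    obtain ⟨a', ha0', ha'⟩ := key_fun hM hB hL hm
    have hsum : ∀ (b : IrrCharacter G → kM M), (∀ χ, χ ∉ B → b χ = 0) → ∀ j ∈ DB M B L,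
        ∑ χ : IrrCharacter G, b χ * rd M (tau (χ : G → ℂ) 1 j) =
        (∑ χ : IrrCharacter G, b χ * rd M ((χ : G → ℂ) 1 / (ψ₀ : G → ℂ) 1)) *
          rd M (tau (ψ₀ : G → ℂ) 1 j) := by
      intro b hb j hj
      rw [Finset.sum_mul]
      refine Finset.sum_congr rfl fun χ _ => ?_
      by_cases hχ : χ ∈ B
      · rw [hrd j hj χ hχ]; ring
      · rw [hb χ hχ]; ring
    have h1 := (ha l (mem_DB.1 hl).1).1 (Iso.refl (hD.prim l hl).idem)
    have h2 := (ha m (mem_DB.1 hm).1).2 hn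
    have h3 := (ha' m (mem_DB.1 hm).1).1 (Iso.refl (hD.prim m hm).idem)
    rw [hsum a ha0 l hl] at h1
    rw [hsum a ha0 m hm] at h2
    rw [hsum a' ha0' m hm] at h3
    rcases mul_eq_zero.1 h2 with h4 | h4
    · rw [h4, zero_mul] at h1
      exact zero_ne_one h1
    · rw [h4, mul_zero] at h3
      exact zero_ne_one h3
  refine CfsgLib.BlkRk.rank_one_of h0 fun ψ hψ => ⟨(ψ : G → ℂ) 1 / (ψ₀ : G → ℂ) 1,
    fun s hs => ?_⟩
  set c : ℂ := (ψ : G → ℂ) 1 / (ψ₀ : G → ℂ) 1 with hc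
  by_cases hne : ψ = ψ₀
  · have h1 : (ψ₀ : G → ℂ) 1 ≠ 0 := CfsgLib.CharInt.irr_one_ne_zero ψ₀.2
    rw [hc, hne, div_self h1, one_mul]
  have hsum2 : ∀ F : IrrCharacter G → ℂ, ∑ χ : IrrCharacter G,
      (if χ = ψ then 1 else if χ = ψ₀ then -c else 0) * F χ = F ψ - c * F ψ₀ := by
    intro F
    have e1 : ∀ χ : IrrCharacter G, (if χ = ψ then 1 else if χ = ψ₀ then -c else 0) * F χ =
        (if χ = ψ then F χ else 0) + (if χ = ψ₀ then -c * F χ else 0) := by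
      intro χ
      by_cases h1 : χ = ψ
      · rw [if_pos h1, if_pos h1, if_neg (fun h => hne (h1.symm.trans h))]; ring
      · rw [if_neg h1, if_neg h1]
        split_ifs <;> ring
    rw [Finset.sum_congr rfl fun χ _ => e1 χ, Finset.sum_add_distrib, Finset.sum_ite_eq',
      Finset.sum_ite_eq', if_pos (Finset.mem_univ _), if_pos (Finset.mem_univ _)]
    ring
  have h1 := van_reg hM hB hL (c := fun χ => if χ = ψ then 1 else if χ = ψ₀ then -c else 0)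
    (by
      intro χ hχ
      show (if χ = ψ then (1 : ℂ) else if χ = ψ₀ then -c else 0) = 0
      rw [if_neg (fun h => hχ (by rw [h]; exact hψ)), if_neg (fun h => hχ (by rw [h]; exact h0))])
    (by
      intro l hl
      rw [hsum2 (fun χ => tau (χ : G → ℂ) 1 l)]
      have hcard : ((DB M B L).card : ℂ) ≠ 0 := by
        exact_mod_cast (Finset.card_pos.2 ⟨l, hl⟩).ne'
      have hdeg : ∀ χ ∈ B, (χ : G → ℂ) 1 = (DB M B L).card * tau (χ : G → ℂ) 1 l := by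
        intro χ hχ
        rw [← tau_JB hM hB hχ, tau_dec hM (irr_classFun χ.2) hD,
          Finset.sum_congr rfl fun m hm => (tau_isoF hM (irr_classFun χ.2) (hD.prim l hl).idem
            (hD.prim m hm).idem (hiso l hl m hm)).symm, Finset.sum_const, nsmul_eq_mul]
      have h2 := hdeg ψ hψ
      have h3 := hdeg ψ₀ h0
      have h4 : (ψ₀ : G → ℂ) 1 ≠ 0 := CfsgLib.CharInt.irr_one_ne_zero ψ₀.2
      have h5 : tau (ψ₀ : G → ℂ) 1 l ≠ 0 := by
        intro h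
        rw [h, mul_zero] at h3
        exact h4 h3
      rw [hc, h2, h3]
      field_simp
      ring) hs
  rw [hsum2 (fun χ => (χ : G → ℂ) s)] at h1
  exact sub_eq_zero.1 h1

end CfsgLib.Star
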