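import Mathlib
import Cfsg.Agent.EqBase
import Cfsg.Agent.LibStar80
import Cfsg.Agent.LibStar38

/-!
# Star construction, LXXXI: S4889 (helper18)
-/

set_option autoImplicit false
set_option linter.unusedSectionVars false
set_option linter.style.haveILetI false
set_option linter.unusedSimpArgs false
set_option linter.unusedVariables false

namespace CfsgLib.Star

open Cfsg CfsgLib.GalChar CfsgLib.GalField CfsgLib.BlockReg CfsgLib.BlockReg2 CfsgLib.LocR
  CfsgLib.BrP CfsgLib.Car CfsgLib.BlockQP CfsgLib.BlockDefect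
  CfsgLib.Points CfsgLib.PLocalInd CfsgLib.CharBasic CfsgLib.BlockCore CfsgLib.BlockSec
  CfsgLib.BlockR CfsgLib.BlockIdem CfsgLib.BlockOrth CfsgLib.CharIndA CfsgLib.CharNorm CfsgLib.BlockM
open scoped ComplexConjugate Pointwise

universe u v

section Main

variable {M : Ideal AlgInt} [hPr : M.IsPrime] {G : Type u} [Group G] [Fintype G]
variable {p : ℕ} [hp : Fact p.Prime] [hch : CharP (kM M) p] [hMx : M.IsMaximal]
variable {B : Set (IrrCharacter G)}

theorem col_KK (hM : IsPModular p M) (hB : IsPBlock M B)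
    {L : Finset (MonoidAlgebra (kM M) G)} (hL : Dec 1 L) {n : ℕ} (hn : 0 < n)
    (hdeg : ∀ χ ∈ B, (χ : G → ℂ) 1 = n) (g h : G) :
    MemLocalRing M ((n : ℂ) / (Nat.card G : ℂ) * KK B g h) := by
  have h1 := col_ring hM hB hL hn hdeg g h⁻¹
  have e1 : ∀ χ : IrrCharacter G, ind B χ * ((χ : G → ℂ) g * (χ : G → ℂ) h⁻¹) =
      ind B χ * ((χ : G → ℂ) g * conj ((χ : G → ℂ) h)) := by
    intro χ
    rw [irr_inv χ.2]
  rw [Finset.sum_congr rfl fun χ _ => e1 χ] at h1
  exact h1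

theorem KK_div_aux (hM : IsPModular p M) (hB : IsPBlock M B)
    {L : Finset (MonoidAlgebra (kM M) G)} (hL : Dec 1 L) {n : ℕ} (hn : 0 < n)
    (hdeg : ∀ χ ∈ B, (χ : G → ℂ) 1 = n) {u : G} (hu : ∃ k : ℕ, orderOf u = p ^ k)
    [Fintype (Subgroup.centralizer ({u} : Set G))]
    {e : Set (IrrCharacter (Subgroup.centralizer ({u} : Set G)))}
    (he : IsInducedBlock M (Subgroup.centralizer ({u} : Set G)) e B)
    {s h : Subgroup.centralizer ({u} : Set G)} (hs : ¬ p ∣ orderOf s) (hh : ¬ p ∣ orderOf h) :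
    MemLocalRing M ((n : ℂ) / (Nat.card G : ℂ) * KK e s h) := by
  classical
  have hpp := isPrime_of_modular hM
  have heb := he.1
  have heU : e ⊆ US u M B := (block_sub_US u hpp heb).2 he
  set κ : ℂ := (n : ℂ) / (Nat.card G : ℂ) with hκ
  have hC0 : (Nat.card (Subgroup.centralizer ({u} : Set G)) : ℂ) ≠ 0 := by
    exact_mod_cast Nat.card_pos.ne'
  let f : Subgroup.centralizer ({u} : Set G) → ℂ := fun g => κ * KK (US u M B) g h
  have hfcf : IsClassFunction (Subgroup.centralizer ({u} : Set G)) f := by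
    intro g x
    show κ * _ = κ * _
    congr 1
    unfold KK
    exact Finset.sum_congr rfl fun ψ _ => by rw [irr_classFun ψ.2 g x]
  have hfR : ∀ g, MemLocalRing M (reg p f g) := by
    intro g
    by_cases hg : p ∣ orderOf g
    · rw [CfsgLib.BlockReg2.reg_not hg]; exact memR_zero
    · rw [CfsgLib.BlockReg2.reg_of hg]
      show MemLocalRing M (κ * KK (US u M B) g h)
      have h1 : KK (US u M B) g h = KK B (u * (g : G)) (u * (h : G)) :=
        (subsection u hM hu hB hg hh).symm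
      rw [h1]
      exact col_KK hM hB hL hn hdeg _ _
  have h1 : blockPart e (reg p f) s = κ * KK e s h := by
    rw [blockPart_KK]
    have e1 : ∀ g : Subgroup.centralizer ({u} : Set G), reg p f g * KK e s g = κ * (KK e s g * KK (US u M B) g h) := by
      intro g
      by_cases hg : p ∣ orderOf g
      · rw [KK_zero hM heb hs hg]; ring
      · rw [CfsgLib.BlockReg2.reg_of hg]
        show κ * KK (US u M B) g h * KK e s g = _
        ring
    rw [Finset.sum_congr rfl fun g _ => e1 g, ← Finset.mul_sum, KK_mul heU]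
    field_simp
  rw [← h1, ← sum_coeff_mul e (reg_classFun hfcf) s]
  exact memR_sum fun w _ => memR_mul (blockCoeff_ring hPr heb w) (hfR _)

theorem KK_div (hM : IsPModular p M) (hB : IsPBlock M B)
    {L : Finset (MonoidAlgebra (kM M) G)} (hL : Dec 1 L) {n : ℕ} (hn : 0 < n)
    (hdeg : ∀ χ ∈ B, (χ : G → ℂ) 1 = n) {u : G} (hu : ∃ k : ℕ, orderOf u = p ^ k)
    {C : Subgroup G} (hC : C = Subgroup.centralizer ({u} : Set G)) [Fintype C]
    {e : Set (IrrCharacter C)} (he : IsInducedBlock M C e B)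
    {s h : C} (hs : ¬ p ∣ orderOf s) (hh : ¬ p ∣ orderOf h) :
    MemLocalRing M ((n : ℂ) / (Nat.card G : ℂ) * KK e s h) := by
  subst hC
  exact KK_div_aux hM hB hL hn hdeg hu he hs hh

theorem ratio_ring (hM : IsPModular p M) (hB : IsPBlock M B) {n : ℕ} (hn : 0 < n)
    {χ : IrrCharacter G} (hχ : χ ∈ B) (hdeg : charDegree (χ : G → ℂ) = n)
    (hh : blockHeight p B (χ : G → ℂ) = 0) {z : ℂ}
    (hz : MemLocalRing M ((n : ℂ) / (Nat.card G : ℂ) * z)) :
    MemLocalRing M (((p ^ blockDefect p B : ℕ) : ℂ)⁻¹ * z) := by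
  have h1 := degree_eq hM hB hχ
  rw [hdeg, hh, add_zero] at h1
  have hG0 : Nat.card G ≠ 0 := Nat.card_pos.ne'
  have hq0 : p ^ blockDefect p B ≠ 0 := (pow_pos hp.out.pos _).ne'
  have h2 : MemLocalRing M ((Nat.card G : ℂ) / ((n * p ^ blockDefect p B : ℕ) : ℂ)) := by
    refine (ring_div_nat_iff hM hG0 (Nat.mul_ne_zero hn.ne' hq0)).2 ?_
    rw [Nat.factorization_mul hn.ne' hq0, Finsupp.add_apply, hp.out.factorization_pow,
      Finsupp.single_eq_same, h1]
  have h3 := memR_mul h2 hz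
  have e1 : (Nat.card G : ℂ) / ((n * p ^ blockDefect p B : ℕ) : ℂ) *
      ((n : ℂ) / (Nat.card G : ℂ) * z) = ((p ^ blockDefect p B : ℕ) : ℂ)⁻¹ * z := by
    have hGc : (Nat.card G : ℂ) ≠ 0 := by exact_mod_cast hG0
    have hnc : (n : ℂ) ≠ 0 := by exact_mod_cast hn.ne'
    have hqc : ((p ^ blockDefect p B : ℕ) : ℂ) ≠ 0 := by exact_mod_cast hq0
    push_cast at hqc ⊢
    field_simp
  rwa [e1] at h3

/-- the local ranks -/
theorem rank_loc_one (hM : IsPModular p M) (hB : IsPBlock M B)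
    {P : Subgroup G} {c : MonoidAlgebra (kM M) G} (hmx : IsMx p ⊤ (JB M B) P c)
    (hab : ∀ x ∈ P, ∀ y ∈ P, x * y = y * x) {n : ℕ} (hn : 0 < n)
    (hdeg : ∀ χ ∈ B, charDegree (χ : G → ℂ) = n)
    (hh : ∀ χ ∈ B, blockHeight p B (χ : G → ℂ) = 0) {w : G} (hw : w ∈ P) :
    blockRank p (bset M (CH ⊤ (Subgroup.zpowers w)) (ev p P c w)) = 1 := by
  classical
  obtain ⟨L, hL⟩ := exists_dec (kM M) (A := MonoidAlgebra (kM M) G) (e := 1) (one_mul 1)
  have hdeg' : ∀ χ ∈ B, (χ : G → ℂ) 1 = n := by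
    intro χ hχ
    rw [CfsgLib.CharInt.irr_one_eq_charDegree χ.2, hdeg χ hχ]
  have hPc := hmx.1.1
  have hblk := ev_blk hPc hw
  haveI := Fintype.ofFinite (CH ⊤ (Subgroup.zpowers w))
  obtain ⟨D, hD⟩ := exists_isDef (p := p) hblk
  have h1 := bset_defect hM hblk hD
  rw [def_central (g_blk hB) hmx hw (fun v hv => hab v hv w hw) hD,
    card_defectGroup hM hB ((g_def hM hB).2 (hmx.isDef (g_blk hB)))] at h1
  have h2 : blockDefect p (bset M (CH ⊤ (Subgroup.zpowers w)) (ev p P c w)) = blockDefect p B :=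
    (Nat.pow_right_injective hp.out.two_le h1).symm
  have hind := bset_induced hM hB hmx hw
  obtain ⟨χ₀, hχ₀⟩ := block_nonempty hPr hB
  apply rank_one_of_KK hM hind.1
  intro s h hs hh'
  rw [h2]
  exact ratio_ring hM hB hn hχ₀ (hdeg χ₀ hχ₀) (hh χ₀ hχ₀)
    (KK_div hM hB hL hn hdeg' (pel_of hPc.pg hw) (CH_zp w) hind hs hh')

theorem nilp_of_eq_deg (hM : IsPModular p M) (hB : IsPBlock M B)
    {P : Subgroup G} {c : MonoidAlgebra (kM M) G} (hmx : IsMx p ⊤ (JB M B) P c)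
    (hab : ∀ x ∈ P, ∀ y ∈ P, x * y = y * x) {n : ℕ} (hn : 0 < n)
    (hdeg : ∀ χ ∈ B, charDegree (χ : G → ℂ) = n)
    (hh : ∀ χ ∈ B, blockHeight p B (χ : G → ℂ) = 0) : IsNilpotentBlock p M B := by
  classical
  haveI := Fintype.ofFinite P
  have hblk := g_blk hB
  have hrk : ∀ w ∈ P, blockRank p (bset M (CH ⊤ (Subgroup.zpowers w)) (ev p P c w)) = 1 :=
    fun w hw => rank_loc_one hM hB hmx hab hn hdeg hh hw
  set T := TS ⊤ P c with hT
  have hT0 : (Nat.card T : ℂ) ≠ 0 := by exact_mod_cast Nat.card_pos.ne'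
  have hwt : ∀ v : P, wt p P c (v : G) =
      (Nat.card (T ⊓ CH ⊤ (Subgroup.zpowers (v : G)) : Subgroup G) : ℂ) / Nat.card T := by
    intro v
    rw [wt_abel hblk hmx hab v.2, hrk v v.2, Nat.cast_one, mul_one]
  -- the rank of `B`
  have hl : blockRank p B = 1 := by
    have h1 := wt_one hB hmx
    have h2 := wt_abel hblk hmx hab P.one_mem
    rw [hrk 1 P.one_mem, h1] at h2
    have h3 : T ⊓ CH ⊤ (Subgroup.zpowers (1 : G)) = T := by
      rw [CH_one, inf_top_eq]
    rw [← hT, h3, Nat.cast_one, mul_one, div_self hT0] at h2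
    exact_mod_cast h2
  -- the number of characters
  have hk : Nat.card B = Nat.card P := by
    obtain ⟨φ, m, d, g, hg, hdeg2, hφ, hd, hmm, hsum⟩ := rank_one_data hM hB hl
    obtain ⟨χ₀, hχ₀⟩ := block_nonempty hPr hB
    have hdc : ∀ χ ∈ B, d χ = d χ₀ := by
      intro χ hχ
      have h1 := hdeg2 χ hχ
      have h2 := hdeg2 χ₀ hχ₀
      rw [hdeg χ hχ] at h1
      rw [hdeg χ₀ hχ₀] at h2
      exact Nat.eq_of_mul_eq_mul_left hg (h1.symm.trans h2)
    have h3 : Nat.card B * d χ₀ ^ 2 = p ^ blockDefect p B := by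
      rw [← hsum, finsum_mem_eq_finite_toFinset_sum _ (Set.toFinite B),
        Finset.sum_congr rfl fun χ hχ => by
          rw [hdc χ ((Set.Finite.mem_toFinset _).1 hχ)], Finset.sum_const, smul_eq_mul,
        Nat.card_coe_set_eq, Set.ncard_eq_toFinset_card B (Set.toFinite B)]
    have h4 := mm_not_dvd hM hB hχ₀ (hh χ₀ hχ₀) hχ₀
    rw [hh χ₀ hχ₀, zero_add, pow_one, hmm χ₀ hχ₀ χ₀ hχ₀] at h4
    have h5 : ¬ p ∣ d χ₀ := by
      rintro ⟨t, ht⟩
      apply h4
      rw [ht]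
      push_cast
      exact ⟨(t : ℤ) * (p * t), by ring⟩
    have h6 : d χ₀ = 1 := by
      have h7 : d χ₀ ∣ p ^ blockDefect p B := by
        rw [← h3, pow_two, ← mul_assoc]
        exact Dvd.intro_left _ rfl
      obtain ⟨j, _, hj⟩ := (Nat.dvd_prime_pow hp.out).1 h7
      rcases Nat.eq_zero_or_pos j with hj0 | hj0
      · rw [hj, hj0, pow_zero]
      · exfalso
        apply h5
        rw [hj]
        exact dvd_pow_self p hj0.ne'
    rw [h6, one_pow, mul_one] at h3
    rw [h3, card_P hM hB hmx]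
  have hle : ∀ v : P, Nat.card (T ⊓ CH ⊤ (Subgroup.zpowers (v : G)) : Subgroup G) ≤ Nat.card T :=
    fun v => Subgroup.card_le_of_le inf_le_left
  have h1 := card_formula hM hB hmx
  rw [hk, Finset.sum_congr rfl fun v _ => hwt v, ← Finset.sum_div, eq_div_iff hT0] at h1
  have h2 : Nat.card P * Nat.card T =
      ∑ v : P, Nat.card (T ⊓ CH ⊤ (Subgroup.zpowers (v : G)) : Subgroup G) := by
    exact_mod_cast h1
  have h3 : ∀ v : P, Nat.card (T ⊓ CH ⊤ (Subgroup.zpowers (v : G)) : Subgroup G) = Nat.card T := by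
    have h4 : ∑ v : P, Nat.card (T ⊓ CH ⊤ (Subgroup.zpowers (v : G)) : Subgroup G) =
        ∑ v : P, Nat.card T := by
      rw [← h2, Finset.sum_const, Finset.card_univ, ← Nat.card_eq_fintype_card, smul_eq_mul]
    intro v
    exact (Finset.sum_eq_sum_iff_of_le (fun v _ => hle v)).1 h4 v (Finset.mem_univ _)
  rw [nilp_iff_g hM hB, nilp_abelian hblk hmx hab]
  intro x hx
  rw [Subgroup.mem_centralizer_iff]
  intro v hv
  have h4 : T ⊓ CH ⊤ (Subgroup.zpowers v) = T :=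
    Subgroup.eq_of_le_of_card_ge inf_le_left (h3 ⟨v, hv⟩).ge
  have h5 : x ∈ T ⊓ CH ⊤ (Subgroup.zpowers v) := by rw [h4]; exact hx
  exact (comm_of_C h5.2).symm

theorem eq_deg_of_nilp (hM : IsPModular p M) (hB : IsPBlock M B)
    {P : Subgroup G} {c : MonoidAlgebra (kM M) G} (hmx : IsMx p ⊤ (JB M B) P c)
    (hab : ∀ x ∈ P, ∀ y ∈ P, x * y = y * x) (hnil : IsNilpotentBlock p M B) :
    ∃ d : ℕ, ∀ χ : IrrCharacter G, χ ∈ B → charDegree (χ : G → ℂ) = d := by
  classical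
  haveI := Fintype.ofFinite P
  have hblk := g_blk hB
  rw [nilp_iff_g hM hB, nilp_abelian hblk hmx hab] at hnil
  set T := TS ⊤ P c with hT
  have hT0 : (Nat.card T : ℂ) ≠ 0 := by exact_mod_cast Nat.card_pos.ne'
  have hrk : ∀ w ∈ P, blockRank p (bset M (CH ⊤ (Subgroup.zpowers w)) (ev p P c w)) = 1 :=
    fun w hw => rank_local hM hblk hmx hab hw (fun x hx _ => hnil hx)
  have hTC : ∀ w ∈ P, T ⊓ CH ⊤ (Subgroup.zpowers w) = T := by
    intro w hw
    apply inf_eq_left.2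
    intro x hx
    have h1 := hnil hx
    rw [CH_zp, Subgroup.mem_centralizer_singleton_iff]
    exact (Subgroup.mem_centralizer_iff.1 h1 w hw).symm
  have hwt : ∀ v : P, wt p P c (v : G) = 1 := by
    intro v
    rw [wt_abel hblk hmx hab v.2, hrk v v.2, Nat.cast_one, mul_one, ← hT, hTC v v.2, div_self hT0]
  have hl : blockRank p B = 1 := by
    have h1 := wt_one hB hmx
    have h2 := hwt 1
    rw [Subgroup.coe_one, h1] at h2
    exact_mod_cast h2
  have h1 := card_formula hM hB hmx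
  rw [Finset.sum_congr rfl fun v _ => hwt v, Finset.sum_const, Finset.card_univ,
    ← Nat.card_eq_fintype_card, nsmul_eq_mul, mul_one] at h1
  have hk : Nat.card B = Nat.card P := by exact_mod_cast h1
  obtain ⟨φ, m, d, g, hg, hdeg2, hφ, hd, hmm, hsum⟩ := rank_one_data hM hB hl
  have hd0 : ∀ χ ∈ B, 1 ≤ d χ := by
    intro χ hχ
    rcases Nat.eq_zero_or_pos (d χ) with h | h
    · have := hdeg2 χ hχ
      rw [h, mul_zero] at this
      exact absurd this (CfsgLib.CharInt.irr_charDegree_pos χ.2).ne'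
    · exact h
  rw [← card_P hM hB hmx, ← hk, finsum_mem_eq_finite_toFinset_sum _ (Set.toFinite B),
    Nat.card_coe_set_eq, Set.ncard_eq_toFinset_card B (Set.toFinite B), Finset.card_eq_sum_ones]
    at hsum
  have h2 := (Finset.sum_eq_sum_iff_of_le (s := (Set.toFinite B).toFinset)
    (f := fun _ => 1) (g := fun χ => d χ ^ 2) (fun χ hχ => Nat.one_le_pow _ _
      (hd0 χ ((Set.Finite.mem_toFinset _).1 hχ)))).1 hsum.symm
  refine ⟨g, fun χ hχ => ?_⟩
  have h3 := h2 χ ((Set.Finite.mem_toFinset _).2 hχ)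
  have h4 : d χ = 1 := by
    have h5 : d χ ^ 2 = 1 := h3.symm
    exact (Nat.pow_eq_one.1 h5).resolve_right (by norm_num)
  rw [hdeg2 χ hχ, h4, mul_one]

end Main

theorem s4889 {M : Ideal AlgInt} {G : Type u} [Group G] [Fintype G] {p : ℕ} [hp : Fact p.Prime]
    (hM : IsPModular p M) {B : Set (IrrCharacter G)} (hB : IsPBlock M B) {D : Subgroup G}
    (hD : IsDefectGroup p M B D) (hDab : IsMulCommutative D)
    (h0 : ∀ χ : IrrCharacter G, χ ∈ B → blockHeight p B (χ : G → ℂ) = 0) :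
    (∃ d : ℕ, ∀ χ : IrrCharacter G, χ ∈ B → charDegree (χ : G → ℂ) = d) ↔
      IsNilpotentBlock p M B := by
  haveI hPr : M.IsPrime := isPrime_of_modular hM
  haveI : M.IsMaximal := hM.2.1
  haveI := charP_kM hM
  have hdef : IsDef p ⊤ (JB M B) D := (g_def hM hB).1 hD
  obtain ⟨c, hc⟩ := exists_of_br_ne (g_blk hB) hdef.le hdef.pg hdef.br
  have hmx : IsMx p ⊤ (JB M B) D c := isMx_of_isDef (g_blk hB) hdef hc
  have hab : ∀ x ∈ D, ∀ y ∈ D, x * y = y * x := fun x hx y hy =>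
    congrArg Subtype.val (hDab.is_comm.comm ⟨x, hx⟩ ⟨y, hy⟩)
  constructor
  · rintro ⟨d, hd⟩
    obtain ⟨χ₀, hχ₀⟩ := block_nonempty hPr hB
    have hd0 : 0 < d := by
      rw [← hd χ₀ hχ₀]; exact CfsgLib.CharInt.irr_charDegree_pos χ₀.2
    exact nilp_of_eq_deg hM hB hmx hab hd0 hd h0
  · exact eq_deg_of_nilp hM hB hmx hab

end CfsgLib.Star
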