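import Mathlib
import Cfsg.Agent.EqBase
import Cfsg.Agent.LibStar81

/-!
# Star construction, LXXXII: quotients by normal p-subgroups in the group algebra (helper18)
-/

set_option autoImplicit false
set_option linter.unusedSectionVars false
set_option linter.style.haveILetI false
set_option linter.unusedSimpArgs false
set_option linter.unusedVariables false

namespace CfsgLib.Star

open CfsgLib.BrP

universe u v

section Push

variable {k : Type v} [Field k] {G : Type u} [Group G] [Fintype G] (N : Subgroup G) [N.Normal]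
  [Fintype (G ⧸ N)]

open Classical in
/-- the image of an element of the group algebra in the group algebra of the quotient -/
noncomputable def pq (a : MonoidAlgebra k G) : MonoidAlgebra k (G ⧸ N) :=
  mk (fun y => ∑ g : G, if (g : G ⧸ N) = y then a.coeff g else 0)

open Classical in
theorem pq_coeff (a : MonoidAlgebra k G) (y : G ⧸ N) :
    (pq N a).coeff y = ∑ g : G, if (g : G ⧸ N) = y then a.coeff g else 0 := rfl

theorem pq_zero : pq N (0 : MonoidAlgebra k G) = 0 := by
  classical
  apply ext'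
  intro y
  rw [pq_coeff, zero_coeff]
  apply Finset.sum_eq_zero
  intro g _
  rw [zero_coeff, ite_self]

theorem pq_add (a b : MonoidAlgebra k G) : pq N (a + b) = pq N a + pq N b := by
  classical
  apply ext'
  intro y
  rw [add_coeff, pq_coeff, pq_coeff, pq_coeff, ← Finset.sum_add_distrib]
  apply Finset.sum_congr rfl
  intro g _
  split_ifs
  · rw [add_coeff]
  · rw [add_zero]

theorem pq_sub (a b : MonoidAlgebra k G) : pq N (a - b) = pq N a - pq N b := by
  classical
  apply ext'
  intro y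
  rw [sub_coeff, pq_coeff, pq_coeff, pq_coeff, ← Finset.sum_sub_distrib]
  apply Finset.sum_congr rfl
  intro g _
  split_ifs
  · rw [sub_coeff]
  · rw [sub_zero]

theorem pq_sum {ι : Type*} (s : Finset ι) (F : ι → MonoidAlgebra k G) :
    pq N (∑ i ∈ s, F i) = ∑ i ∈ s, pq N (F i) := by
  classical
  induction s using Finset.induction with
  | empty => rw [Finset.sum_empty, Finset.sum_empty, pq_zero]
  | insert a s ha ih => rw [Finset.sum_insert ha, Finset.sum_insert ha, pq_add, ih]

theorem pq_one : pq N (1 : MonoidAlgebra k G) = 1 := by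
  classical
  apply ext'
  intro y
  rw [pq_coeff, one_coeff]
  rw [Finset.sum_eq_single (1 : G)]
  · rw [one_coeff, if_pos rfl, QuotientGroup.mk_one]
    by_cases h : y = 1
    · rw [if_pos h, if_pos h.symm]
    · rw [if_neg h, if_neg (fun h' => h h'.symm)]
  · intro g _ hg
    rw [one_coeff, if_neg hg, ite_self]
  · intro h; exact absurd (Finset.mem_univ _) h

theorem pq_mul (a b : MonoidAlgebra k G) : pq N (a * b) = pq N a * pq N b := by
  classical
  apply ext'
  intro y
  have h1 : (pq N (a * b)).coeff y = ∑ x : G, a.coeff x * (pq N b).coeff ((x : G ⧸ N)⁻¹ * y) := by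
    rw [pq_coeff]
    have e1 : ∀ g : G, (if (g : G ⧸ N) = y then (a * b).coeff g else 0) =
        ∑ x : G, if (g : G ⧸ N) = y then a.coeff x * b.coeff (x⁻¹ * g) else 0 := by
      intro g
      split_ifs
      · rw [mul_coeff]
      · rw [Finset.sum_const_zero]
    rw [Finset.sum_congr rfl fun g _ => e1 g, Finset.sum_comm]
    apply Finset.sum_congr rfl
    intro x _
    rw [pq_coeff, Finset.mul_sum]
    refine Fintype.sum_equiv (Equiv.mulLeft x⁻¹) _ _ ?_
    intro g
    have e2 : (((Equiv.mulLeft x⁻¹) g : G) : G ⧸ N) = (x : G ⧸ N)⁻¹ * y ↔ (g : G ⧸ N) = y := by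
      rw [Equiv.coe_mulLeft, QuotientGroup.mk_mul, QuotientGroup.mk_inv, mul_right_inj]
    rw [Equiv.coe_mulLeft] at *
    by_cases h : (g : G ⧸ N) = y
    · rw [if_pos h, if_pos (e2.2 h)]
    · rw [if_neg h, if_neg (fun h' => h (e2.1 h')), mul_zero]
  rw [h1, mul_coeff]
  have e3 : ∀ z : G ⧸ N, (pq N a).coeff z * (pq N b).coeff (z⁻¹ * y) =
      ∑ x : G, if (x : G ⧸ N) = z then a.coeff x * (pq N b).coeff ((x : G ⧸ N)⁻¹ * y) else 0 := by
    intro z
    rw [pq_coeff, Finset.sum_mul]
    apply Finset.sum_congr rfl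
    intro x _
    split_ifs with h
    · rw [h]
    · rw [zero_mul]
  rw [Finset.sum_congr rfl fun z _ => e3 z, Finset.sum_comm]
  apply Finset.sum_congr rfl
  intro x _
  rw [Finset.sum_ite_eq Finset.univ (x : G ⧸ N), if_pos (Finset.mem_univ _)]

theorem pq_cj (x : G) (a : MonoidAlgebra k G) : pq N (cj x a) = cj (x : G ⧸ N) (pq N a) := by
  classical
  apply ext'
  intro y
  rw [cj_coeff, pq_coeff, pq_coeff]
  refine Fintype.sum_equiv (MulAut.conj x⁻¹).toEquiv _ _ ?_
  intro g
  have h1 : (MulAut.conj x⁻¹).toEquiv g = x⁻¹ * g * x := by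
    change x⁻¹ * g * x⁻¹⁻¹ = _
    rw [inv_inv]
  rw [h1, cj_coeff]
  have e2 : ((x⁻¹ * g * x : G) : G ⧸ N) = (x : G ⧸ N)⁻¹ * y * (x : G ⧸ N) ↔ (g : G ⧸ N) = y := by
    rw [QuotientGroup.mk_mul, QuotientGroup.mk_mul, QuotientGroup.mk_inv, mul_left_inj,
      mul_right_inj]
  by_cases h : (g : G ⧸ N) = y
  · rw [if_pos h, if_pos (e2.2 h)]
  · rw [if_neg h, if_neg (fun h' => h (e2.1 h'))]

theorem pq_supp {K : Subgroup G} {a : MonoidAlgebra k G} (ha : Supp K a) :
    Supp (K.map (QuotientGroup.mk' N)) (pq N a) := by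
  classical
  intro y hy
  rw [pq_coeff]
  apply Finset.sum_eq_zero
  intro g _
  split_ifs with h
  · apply ha
    intro hg
    exact hy ⟨g, hg, h⟩
  · rfl

theorem pq_zh {K : Subgroup G} {a : MonoidAlgebra k G} (ha : ZH K a) :
    ZH (K.map (QuotientGroup.mk' N)) (pq N a) := by
  refine ⟨pq_supp N ha.1, ?_⟩
  rw [fx_iff]
  rintro _ ⟨x, hx, rfl⟩
  show cj (x : G ⧸ N) (pq N a) = pq N a
  rw [← pq_cj, fx_iff.1 ha.2 x hx]

theorem pq_pow (a : MonoidAlgebra k G) (n : ℕ) : pq N (a ^ n) = pq N a ^ n := by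
  induction n with
  | zero => rw [pow_zero, pow_zero, pq_one]
  | succ n ih => rw [pow_succ, pow_succ, pq_mul, ih]

theorem pq_nilpotent {a : MonoidAlgebra k G} (h : IsNilpotent a) : IsNilpotent (pq N a) := by
  obtain ⟨n, hn⟩ := h
  exact ⟨n, by rw [← pq_pow, hn, pq_zero]⟩

/-- lifting functions on `p`-regular elements -/
theorem lift_reg {p : ℕ} [hp : Fact p.Prime] {K : Subgroup G} (hNK : N ≤ K) (hN : IsPGroup p N)
    (hreg : ∀ y ∈ K, ¬ p ∣ orderOf y → ∀ n ∈ N, y * n = n * y)
    {f : MonoidAlgebra k (G ⧸ N)} (hf : ZH (K.map (QuotientGroup.mk' N)) f)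
    (hfr : ∀ y, p ∣ orderOf y → f.coeff y = 0) :
    ∃ g : MonoidAlgebra k G, ZH K g ∧ pq N g = f := by
  classical
  refine ⟨mk (fun y => if p ∣ orderOf y then 0 else f.coeff (y : G ⧸ N)), ⟨?_, ?_⟩, ?_⟩
  · intro y hy
    rw [mk_coeff]
    split_ifs
    · rfl
    · apply hf.1
      rintro ⟨z, hz, hzy⟩
      apply hy
      have h1 : z⁻¹ * y ∈ N := QuotientGroup.eq.mp hzy
      have h2 := K.mul_mem hz (hNK h1)
      rwa [mul_inv_cancel_left] at h2
  · rw [fx_iff]
    intro x hx
    apply ext'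
    intro y
    rw [cj_coeff, mk_coeff, mk_coeff]
    have h1 : orderOf (x⁻¹ * y * x) = orderOf y := by
      have : x⁻¹ * y * x = MulAut.conj x⁻¹ y := by rw [MulAut.conj_apply, inv_inv]
      rw [this]; exact MulEquiv.orderOf_eq (MulAut.conj x⁻¹) y
    rw [h1]
    split_ifs
    · rfl
    · have h2 := fx_iff.1 hf.2 (x : G ⧸ N) ⟨x, hx, rfl⟩
      conv_rhs => rw [← h2, cj_coeff]
      rfl
  · apply ext'
    intro q
    rw [pq_coeff]
    by_cases hq : f.coeff q = 0
    · rw [hq]
      apply Finset.sum_eq_zero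
      intro g _
      split_ifs with h
      · rw [mk_coeff]
        split_ifs
        · rfl
        · rw [h, hq]
      · rfl
    · have hqr : ¬ p ∣ orderOf q := fun h => hq (hfr q h)
      have hqK : q ∈ K.map (QuotientGroup.mk' N) := by
        by_contra h
        exact hq (hf.1 q h)
      obtain ⟨g₀, hg₀, rfl⟩ := hqK
      obtain ⟨m, hm⟩ := pow_regular (p := p) g₀
      have hcop : (p ^ m).Coprime (orderOf ((g₀ : G) : G ⧸ N)) :=
        Nat.Coprime.pow_left m ((Nat.Prime.coprime_iff_not_dvd hp.out).2 hqr)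
      obtain ⟨j, hj⟩ := exists_pow_eq_self_of_coprime hcop
      set g₁ := (g₀ ^ p ^ m) ^ j with hg₁
      have h1 : ((g₁ : G) : G ⧸ N) = (g₀ : G ⧸ N) := by
        rw [hg₁]
        exact hj
      have h2 : ¬ p ∣ orderOf g₁ := fun h => hm (h.trans (orderOf_pow_dvd j))
      have h3 : g₁ ∈ K := K.pow_mem (K.pow_mem hg₀ _) _
      rw [Finset.sum_eq_single g₁]
      · show (if ((g₁ : G) : G ⧸ N) = (g₀ : G ⧸ N) then _ else _) = _
        rw [if_pos h1, mk_coeff, if_neg h2, h1]
        rfl
      · intro g _ hne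
        split_ifs with h
        · rw [mk_coeff, if_pos]
          by_contra h4
          have h5 : g₁⁻¹ * g ∈ N := QuotientGroup.eq.mp (h1.trans h.symm)
          have h6 : Commute g₁ (g₁⁻¹ * g) := hreg g₁ h3 h2 _ h5
          have h7 := CfsgLib.BlockCov3.eq_one_of_reg_mul (p := p) h6
            (CfsgLib.BlockCov3.exists_pow_of_isPGroup hN h5) h2
            (by rw [mul_inv_cancel_left]; exact h4)
          apply hne
          rw [inv_mul_eq_one] at h7
          exact h7.symm
        · rfl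
      · intro h; exact absurd (Finset.mem_univ _) h

/-- images of blocks are blocks -/
theorem pq_blk {p : ℕ} [hp : Fact p.Prime] {K : Subgroup G} (hNK : N ≤ K) (hN : IsPGroup p N)
    (hreg : ∀ y ∈ K, ¬ p ∣ orderOf y → ∀ n ∈ N, y * n = n * y)
    {c : MonoidAlgebra k G} (hc : IsBlk K c)
    {f : MonoidAlgebra k (G ⧸ N)} (hf : IsBlk (K.map (QuotientGroup.mk' N)) f)
    (hfr : ∀ y, p ∣ orderOf y → f.coeff y = 0) (h : pq N c * f ≠ 0) : pq N c = f := by
  obtain ⟨g, hg, hgf⟩ := lift_reg N hNK hN hreg hf.zh hfr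
  have hcz := pq_zh N hc.zh
  have hcc : pq N c * pq N c = pq N c := by rw [← pq_mul, hc.idem]
  have hcf : pq N c * f = f := (hf.prim _ hcz hcc).resolve_right h
  have hcomm : f * pq N c = pq N c * f := zh_comm hf.zh hcz
  rcases hc.unit_or_nilpotent hg with h1 | ⟨w, hw, h1⟩
  · exfalso
    have h2 := pq_nilpotent N h1
    rw [pq_mul, hgf, hcomm, hcf] at h2
    exact hf.not_nilpotent h2
  · have hg' : ZH K (1 - g) := zh_sub zh_one hg
    rcases hc.unit_or_nilpotent hg' with h3 | ⟨w', hw', h3⟩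
    · have h4 := pq_nilpotent N h3
      have h5 : pq N ((1 - g) * c) = pq N c - f := by
        rw [pq_mul, pq_sub, pq_one, hgf, sub_mul, one_mul, hcomm, hcf]
      rw [h5] at h4
      have h6 : (pq N c - f) * (pq N c - f) = pq N c - f := by
        rw [sub_mul, mul_sub, mul_sub, hcc, hcf, hcomm, hcf, hf.idem]
        abel
      exact sub_eq_zero.1 (eq_zero_of_idem_nilpotent h6 h4)
    · exfalso
      apply h
      have h4 : c = (g * (1 - g)) * (w * w') := by
        calc c = c * c := hc.idem.symm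
          _ = (g * w) * ((1 - g) * w') := by rw [h1, h3]
          _ = g * (w * (1 - g)) * w' := by noncomm_ring
          _ = g * ((1 - g) * w) * w' := by rw [zh_comm hw hg']
          _ = (g * (1 - g)) * (w * w') := by noncomm_ring
      have h5 : pq N (g * (1 - g)) = 0 := by
        rw [pq_mul, pq_sub, pq_one, hgf, mul_sub, mul_one, hf.idem, sub_self]
      rw [h4, pq_mul, h5, zero_mul, zero_mul]

end Push

end CfsgLib.Star
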