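import Mathlib
import Cfsg.Agent.EqBase
import Cfsg.Agent.LibStar82

/-!
# Star construction, LXXXIII: nilpotency with a normal defect group (helper18)
-/

set_option autoImplicit false
set_option linter.unusedSectionVars false
set_option linter.style.haveILetI false
set_option linter.unusedSimpArgs false
set_option linter.unusedVariables false

namespace CfsgLib.Star

open CfsgLib.BrP

universe u v

section NormalNil

variable {k : Type v} [Field k] {G : Type u} [Group G] [Fintype G] {p : ℕ}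
variable [hp : Fact p.Prime] [CharP k p]

/-- the pair above is covered by the pair below -/
theorem mul_ne_of_le {H D : Subgroup G} {c : MonoidAlgebra k G} (hc : BP p H D c)
    {a : Subgroup G × MonoidAlgebra k G} (h : LEp p H a (D, c)) : a.2 * c ≠ 0 := by
  have key : ∀ a : Subgroup G × MonoidAlgebra k G, LEp p H a (D, c) → a.2 * c ≠ 0 := by
    intro a h
    unfold LEp at h
    induction h using Relation.ReflTransGen.head_induction_on with
    | refl => exact fun h => hc.blk.ne (by rw [← hc.blk.idem]; exact h)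
    | head h1 h2 ih =>
      rename_i x y
      intro h0
      apply ih
      have hle : y.1 ≤ D := LEp.le (b := (D, c)) h2
      have hcs : Supp (Subgroup.centralizer (y.1 : Set G)) c :=
        supp_mono (centralizer_anti hle) hc.supp
      have hb : Br y.1 (x.2 * c) = Br y.1 x.2 * c := by
        rw [br_mul h1.bpP.pg h1.fx (fx_of_supp_centralizer hcs), br_eq_self hcs]
      rw [h0, br_zero] at hb
      have h3 : y.2 = y.2 * Br y.1 x.2 := by
        rw [zh_comm h1.bpP.blk.zh (br_zh h1.le h1.bpQ.blk.zh), h1.br]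
      rw [h3, mul_assoc, ← hb, mul_zero]
  exact key a h

theorem mul_ne_of_le' {H D Q : Subgroup G} {f c : MonoidAlgebra k G} (hc : BP p H D c)
    (h : LEp p H (Q, f) (D, c)) : f * c ≠ 0 := mul_ne_of_le (a := (Q, f)) hc h

/-- nilpotency with a normal defect group -/
theorem nilp_of_normal {D : Subgroup G} (hDn : D.Normal) {B c : MonoidAlgebra k G}
    (hB : IsBlk ⊤ B) (hmx : IsMx p ⊤ B D c)
    (hT : ∀ x ∈ TS ⊤ D c, ¬ p ∣ orderOf x → x ∈ Subgroup.centralizer (D : Set G)) :
    Nilp p ⊤ B := by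
  have hcS : ∀ x : G, cS x D = D := fun x =>
    cS_of_normalizer (by rw [Subgroup.normalizer_eq_top D]; exact Subgroup.mem_top x)
  -- the case of pairs below `(D, c)`
  have key : ∀ (Q : Subgroup G) (f : MonoidAlgebra k G), LEp p ⊤ (Q, f) (D, c) →
      ∀ x ∈ TS ⊤ Q f, ¬ p ∣ orderOf x → x ∈ Subgroup.centralizer (Q : Set G) := by
    intro Q f hle x hx hxp
    have hf : BP p ⊤ Q f := hle.bp_left hmx.1.1
    have h1 := mul_ne_of_le' hmx.1.1 hle
    have h2 : LEp p ⊤ (Q, f) (D, cj x c) := by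
      have h3 := hle.cj' (Subgroup.mem_top x)
      dsimp only at h3
      rw [cS_of_normalizer hx.2.1, hx.2.2, hcS] at h3
      exact h3
    have hc' : BP p ⊤ D (cj x c) := by
      have h3 := hmx.1.1.cj' (Subgroup.mem_top x)
      rwa [hcS] at h3
    have h3 := mul_ne_of_le' hc' h2
    have hKN : CH ⊤ D ≤ CH ⊤ Q := CH_anti hle.le
    have hNn : CH ⊤ Q ≤ Subgroup.normalizer ((CH ⊤ D : Subgroup G) : Set G) := by
      intro z _
      rw [CH_top]
      apply mem_normalizer_of_cS
      have h4 := centralizer_cS z D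
      rw [hcS] at h4
      exact h4.symm
    obtain ⟨n, hn, hnc⟩ := blocks_conj hKN hNn hf.blk hmx.1.1.blk hc'.blk h1 h3
    have ht : n⁻¹ * x ∈ TS ⊤ D c := by
      refine ⟨Subgroup.mem_top _, ?_, ?_⟩
      · rw [Subgroup.normalizer_eq_top D]; exact Subgroup.mem_top _
      · rw [← cj_cj, hnc, cj_inv_cj]
    obtain ⟨m, hm⟩ := pow_regular (p := p) (n⁻¹ * x)
    have h5 := hT _ ((TS ⊤ D c).pow_mem ht _) hm
    have h6 : (n⁻¹ * x) ^ p ^ m ∈ Subgroup.centralizer (Q : Set G) := centralizer_anti hle.le h5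
    have hnQ : n⁻¹ ∈ Subgroup.centralizer (Q : Set G) := Subgroup.inv_mem _ hn.2
    -- powers
    have h7 : ∀ j : ℕ, x ^ j * ((n⁻¹ * x) ^ j)⁻¹ ∈ Subgroup.centralizer (Q : Set G) := by
      intro j
      induction j with
      | zero => simp only [pow_zero, one_mul, inv_one]; exact Subgroup.one_mem _
      | succ j ih =>
        have hxc : ∀ z ∈ Subgroup.centralizer (Q : Set G), x * z * x⁻¹ ∈
            Subgroup.centralizer (Q : Set G) := fun z hz =>
          (mem_centralizer_conj hx.2.1).2 hz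
        have e1 : x ^ (j + 1) * ((n⁻¹ * x) ^ (j + 1))⁻¹ =
            (x * (x ^ j * ((n⁻¹ * x) ^ j)⁻¹) * x⁻¹) * (n⁻¹)⁻¹ := by
          rw [pow_succ' x j, pow_succ' (n⁻¹ * x) j, mul_inv_rev, mul_inv_rev]
          simp only [mul_assoc]
        rw [e1]
        exact Subgroup.mul_mem _ (hxc _ ih) (Subgroup.inv_mem _ hnQ)
    have h8 := Subgroup.mul_mem _ (h7 (p ^ m)) h6
    rw [inv_mul_cancel_right] at h8
    exact mem_of_pow_mem hxp h8
  intro Q f hQ x hx hxp
  obtain ⟨g, hg, hle⟩ := hmx.ge hB hQ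
  have hyT : g * x * g⁻¹ ∈ TS ⊤ (cS g Q) (cj g f) := by
    refine ⟨Subgroup.mem_top _, ?_, ?_⟩
    · rw [mem_normalizer_iff_cS, cS_cS]
      have e1 : g * x * g⁻¹ * g = g * x := by group
      rw [e1, ← cS_cS, cS_of_normalizer hx.2.1]
    · rw [cj_cj]
      have e1 : g * x * g⁻¹ * g = g * x := by group
      rw [e1, ← cj_cj, hx.2.2]
  have hyp : ¬ p ∣ orderOf (g * x * g⁻¹) := by
    have : orderOf (g * x * g⁻¹) = orderOf x := by
      have : g * x * g⁻¹ = MulAut.conj g x := rfl
      rw [this]; exact MulEquiv.orderOf_eq (MulAut.conj g) x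
    rw [this]; exact hxp
  have h3 := key _ _ hle _ hyT hyp
  rw [centralizer_cS, mem_cS] at h3
  have e1 : g⁻¹ * (g * x * g⁻¹) * g = x := by group
  rwa [e1] at h3

end NormalNil

end CfsgLib.Star
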