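import Cfsg.Statements.S0029
import Cfsg.Agent.LibSolvCoprime3

set_option autoImplicit false
open Cfsg

namespace Cfsg.Agent.S0029

/-- An action that is trivial on the Frattini quotient and coprime on the Frattini subgroup is trivial: if A normalises K, the orders of A and of the Frattini subgroup of K are coprime, and every commutator of an element of A with an element of K lies in the Frattini subgroup of K, then A centralises K. -/
theorem result {G : Type*} [Group G] [Finite G] (A K : Subgroup G)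
    (hAK : A ≤ Subgroup.normalizer (K : Set G))
    (hcop : (Nat.card A).Coprime (Nat.card (frattini K)))
    (htriv : ∀ a ∈ A, ∀ k ∈ K, a * k * a⁻¹ * k⁻¹ ∈ (frattini K).map K.subtype) :
    A ≤ Subgroup.centralizer (K : Set G) := by
  obtain ⟨Φ, hΦ⟩ : ∃ Φ, Φ = (frattini K).map K.subtype := ⟨_, rfl⟩
  have hΦK : Φ ≤ K := by rw [hΦ]; exact Subgroup.map_subtype_le _
  have hΦc : Nat.card Φ = Nat.card (frattini K) := by
    rw [hΦ, Subgroup.card_map_of_injective K.subtype_injective]
  have hΦs : Group.IsSolvable Φ := by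
    have h1 : Group.IsNilpotent (frattini K) := frattini_nilpotent
    have h2 : Group.IsSolvable (frattini K) := inferInstance
    rw [hΦ]; exact CfsgLib.SolvBasic.isSolvable_map _ _
  have hAΦ : A ≤ Subgroup.normalizer (Φ : Set G) := by
    rw [hΦ]; exact CfsgLib.SolvCoprime.le_normalizer_of_char hAK (frattini K)
  have hKΦ : K ≤ Subgroup.normalizer (Φ : Set G) := by
    rw [hΦ]; exact CfsgLib.SolvCoprime.le_normalizer_of_char Subgroup.le_normalizer (frattini K)
  rw [← hΦc] at hcop
  have h1 : ((K ⊓ Subgroup.centralizer (A : Set G)).subgroupOf K) ⊔ frattini K = ⊤ := by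
    rw [eq_top_iff]
    rintro ⟨k, hk⟩ -
    obtain ⟨c, hc, hkc⟩ := CfsgLib.SolvCoprime.exists_fixed_in_coset A Φ hAΦ hcop (Or.inr hΦs) k
      (hKΦ hk) (fun a ha => by rw [hΦ]; exact htriv a ha k hk)
    have hcK : c ∈ K := by
      have := K.mul_mem hk (hΦK hkc)
      rwa [mul_inv_cancel_left] at this
    have h2 : (⟨k, hk⟩ : K)⁻¹ * ⟨c, hcK⟩ ∈ frattini K := by
      rw [hΦ] at hkc
      obtain ⟨y, hy, hyk⟩ := hkc
      have : y = (⟨k, hk⟩ : K)⁻¹ * ⟨c, hcK⟩ := Subtype.ext hyk
      rwa [← this]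
    have h3 : (⟨k, hk⟩ : K) = ⟨c, hcK⟩ * ((⟨k, hk⟩ : K)⁻¹ * ⟨c, hcK⟩)⁻¹ := by group
    rw [h3]
    exact Subgroup.mul_mem_sup (Subgroup.mem_subgroupOf.mpr (Subgroup.mem_inf.mpr ⟨hcK, hc⟩))
      ((frattini K).inv_mem h2)
  have h2 := frattini_nongenerating h1
  rw [Subgroup.subgroupOf_eq_top] at h2
  rw [Subgroup.le_centralizer_iff]
  exact h2.trans inf_le_right

end Cfsg.Agent.S0029
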