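import Mathlib
import Cfsg.Agent.EqBase
import Cfsg.Agent.LibStar83
import Cfsg.Agent.LibBlockQuo
import Cfsg.Agent.LibSolvFrat
import Cfsg.Agent.LibCharMore
import Cfsg.Agent.S0029

/-!
# Star construction, LXXXIV: S4890 (helper18)
-/

set_option autoImplicit false
set_option linter.unusedSectionVars false
set_option linter.style.haveILetI false
set_option linter.unusedSimpArgs false
set_option linter.unusedVariables false

namespace CfsgLib.Star

open Cfsg CfsgLib.GalChar CfsgLib.GalField CfsgLib.BlockReg CfsgLib.BlockReg2 CfsgLib.LocR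
  CfsgLib.BrP CfsgLib.Car CfsgLib.BlockQP CfsgLib.BlockDefect
  CfsgLib.Points CfsgLib.PLocalInd CfsgLib.CharBasic CfsgLib.BlockCore CfsgLib.BlockSec
  CfsgLib.BlockR CfsgLib.BlockIdem CfsgLib.BlockOrth CfsgLib.CharIndA CfsgLib.CharNorm CfsgLib.BlockM
  CfsgLib.BlockCount2 CfsgLib.BlockQuo
open scoped ComplexConjugate Pointwise

universe u v

section Dom

variable {M : Ideal AlgInt} [hPr : M.IsPrime] {G : Type u} [Group G] [Fintype G]
variable {p : ℕ} [hp : Fact p.Prime] [hch : CharP (kM M) p] [hMx : M.IsMaximal]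
variable {B : Set (IrrCharacter G)} (N : Subgroup G) [N.Normal] [Fintype (G ⧸ N)]

/-- the image of the block idempotent -/
theorem pq_JB (hB : IsPBlock M B) :
    pq N (JB M B) = JB M {ξ : IrrCharacter (G ⧸ N) | infl N ξ ∈ B} ∧
      AR M (ind {ξ : IrrCharacter (G ⧸ N) | infl N ξ ∈ B}) := by
  classical
  have hval : ∀ y : G ⧸ N, blockCoeff {ξ : IrrCharacter (G ⧸ N) | infl N ξ ∈ B} y =
      ∑ g : G, if (g : G ⧸ N) = y then blockCoeff B g else 0 := by
    intro y
    have h1 := congrFun (pushf_blockCoeff N B) y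
    rw [← h1]
    unfold pushf
    exact Finset.sum_congr rfl fun g _ => by congr 1
  have hR : ∀ (g : G), MemLocalRing M (blockCoeff B g) := blockCoeff_ring hPr hB
  refine ⟨?_, ?_⟩
  · apply ext'
    intro y
    have h2 : (JB M {ξ : IrrCharacter (G ⧸ N) | infl N ξ ∈ B}).coeff y =
        rd M (blockCoeff {ξ : IrrCharacter (G ⧸ N) | infl N ξ ∈ B} y) := bk_coeff id_inj _ y
    rw [h2, hval, pq_coeff, rd_sum]
    · apply Finset.sum_congr rfl
      intro g _
      split_ifs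
      · exact bk_coeff id_inj B g
      · rw [rd_zero]
    · intro g _
      split_ifs
      · exact hR g
      · exact memR_zero
  · intro y
    rw [← blockCoeff_eq_fou, hval]
    apply memR_sum
    intro g _
    split_ifs
    · exact hR g
    · exact memR_zero

/-- the blocks dominated by `B` -/
theorem pq_mul_JB (hB : IsPBlock M B) {Bb : Set (IrrCharacter (G ⧸ N))} (hBb : IsPBlock M Bb)
    (hinf : ∀ ξ ∈ Bb, infl N ξ ∈ B) : pq N (JB M B) * JB M Bb = JB M Bb := by
  obtain ⟨h1, h2⟩ := pq_JB (M := M) N hB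
  rw [h1]
  refine mul_bk_of_one id_inj h2 ?_ hBb ?_
  · have h3 : pq N (JB M B) * pq N (JB M B) = pq N (JB M B) := by
      rw [← pq_mul, (g_blk hB).idem]
    rw [h1] at h3
    exact h3
  · intro ξ hξ
    rw [ind_of (show ξ ∈ {ξ : IrrCharacter (G ⧸ N) | infl N ξ ∈ B} from hinf ξ hξ), sub_self]
    exact memI_zero

/-- blocks of subgroups are supported on `p`-regular elements -/
theorem blk_reg (hM : IsPModular p M) {H : Subgroup G} {f : MonoidAlgebra (kM M) G}
    (hf : IsBlk H f) : ∀ y, p ∣ orderOf y → f.coeff y = 0 := by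
  intro y hy
  by_cases hyH : y ∈ H
  · obtain ⟨b, hb, rfl⟩ := h_surj hf
    have h1 : (bk M H.subtype b).coeff ((⟨y, hyH⟩ : H) : G) = rd M (blockCoeff b ⟨y, hyH⟩) :=
      bk_coeff (Subgroup.subtype_injective H) b ⟨y, hyH⟩
    rw [h1, CfsgLib.BlockOrth.blockCoeff_eq_zero hM hb, rd_zero]
    rwa [← Subgroup.orderOf_coe]
  · exact hf.zh.1 y hyH

/-- transfer of nilpotency from the quotient by the Frattini subgroup -/
theorem nilp_transfer (hM : IsPModular p M) (hB : IsPBlock M B) {D : Subgroup G} (hDn : D.Normal)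
    (hD : IsDef p ⊤ (JB M B) D) (hND : N ≤ D)
    (hab : ∀ x ∈ D, ∀ y ∈ D, x * y * x⁻¹ * y⁻¹ ∈ N)
    (hfr : ∀ x : G, ¬ p ∣ orderOf x → (∀ k ∈ D, x * k * x⁻¹ * k⁻¹ ∈ N) →
      x ∈ Subgroup.centralizer (D : Set G))
    {Bb : Set (IrrCharacter (G ⧸ N))} (hBb : IsPBlock M Bb)
    (hinf : ∀ ξ ∈ Bb, infl N ξ ∈ B)
    {f : MonoidAlgebra (kM M) (G ⧸ N)}
    (hmf : Of p ⊤ (JB M Bb) (D.map (QuotientGroup.mk' N)) f)
    (hTS : TS ⊤ (D.map (QuotientGroup.mk' N)) f ≤
      Subgroup.centralizer ((D.map (QuotientGroup.mk' N) : Subgroup (G ⧸ N)) : Set (G ⧸ N))) :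
    Nilp p ⊤ (JB M B) := by
  classical
  set Db := D.map (QuotientGroup.mk' N) with hDb
  haveI hDbn : Db.Normal := hDn.map _ (QuotientGroup.mk'_surjective N)
  have hDbp : IsPGroup p Db := hmf.1.pg
  have hNp : IsPGroup p N := hD.pg.to_le hND
  set Kb := CH ⊤ Db with hKb
  set K := Kb.comap (QuotientGroup.mk' N) with hK
  have hKmap : K.map (QuotientGroup.mk' N) = Kb :=
    Subgroup.map_comap_eq_self_of_surjective (QuotientGroup.mk'_surjective N) Kb
  have hmemK : ∀ x : G, x ∈ K ↔ ∀ k ∈ D, x * k * x⁻¹ * k⁻¹ ∈ N := by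
    intro x
    constructor
    · intro hx k hk
      have h1 : (QuotientGroup.mk' N x) ∈ Subgroup.centralizer ((Db : Subgroup (G ⧸ N)) : Set (G ⧸ N)) := hx.2
      have h2 := Subgroup.mem_centralizer_iff.1 h1 (QuotientGroup.mk' N k) ⟨k, hk, rfl⟩
      rw [← QuotientGroup.eq_one_iff]
      show (QuotientGroup.mk' N) (x * k * x⁻¹ * k⁻¹) = 1
      rw [map_mul, map_mul, map_mul, map_inv, map_inv, ← h2]
      group
    · intro h
      refine ⟨Subgroup.mem_top _, ?_⟩
      show (QuotientGroup.mk' N x) ∈ Subgroup.centralizer ((Db : Subgroup (G ⧸ N)) : Set (G ⧸ N))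
      rw [Subgroup.mem_centralizer_iff]
      rintro _ ⟨k, hk, rfl⟩
      have h1 := h k hk
      rw [← QuotientGroup.eq_one_iff] at h1
      have h2 : (QuotientGroup.mk' N) (x * k * x⁻¹ * k⁻¹) = 1 := h1
      rw [map_mul, map_mul, map_mul, map_inv, map_inv, mul_inv_eq_one, mul_inv_eq_iff_eq_mul] at h2
      exact h2.symm
  have hNK : N ≤ K := by
    intro n hn
    rw [hmemK]
    intro k hk
    have h1 : k * n⁻¹ * k⁻¹ ∈ N := Subgroup.Normal.conj_mem inferInstance _ (N.inv_mem hn) k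
    have h2 := N.mul_mem hn h1
    have e1 : n * (k * n⁻¹ * k⁻¹) = n * k * n⁻¹ * k⁻¹ := by group
    rwa [e1] at h2
  have hreg : ∀ y ∈ K, ¬ p ∣ orderOf y → ∀ n ∈ N, y * n = n * y := by
    intro y hy hyp n hn
    have h1 := hfr y hyp ((hmemK y).1 hy)
    exact (Subgroup.mem_centralizer_iff.1 h1 n (hND hn)).symm
  haveI hKn : K.Normal := by
    have h1 : Kb.Normal := by
      rw [hKb, CH_top]
      infer_instance
    exact h1.comap _
  -- the central idempotent of `B` in `K`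
  have hDtop : (⊤ : Subgroup G) ≤ Subgroup.normalizer (D : Set G) := by
    rw [Subgroup.normalizer_eq_top D]
  have hDbtop : (⊤ : Subgroup (G ⧸ N)) ≤ Subgroup.normalizer (Db : Set (G ⧸ N)) := by
    rw [Subgroup.normalizer_eq_top Db]
  set e₀ := JB M B with he₀
  have he₀b : IsBlk ⊤ e₀ := g_blk hB
  have hs0 : Supp (Subgroup.centralizer (D : Set G)) e₀ :=
    idem_supp le_top hD.pg hDtop he₀b.zh he₀b.idem
  have hCK : Subgroup.centralizer (D : Set G) ≤ K := by
    intro x hx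
    rw [hmemK]
    intro k hk
    have h1 := Subgroup.mem_centralizer_iff.1 hx k hk
    have e1 : x * k * x⁻¹ * k⁻¹ = 1 := by rw [← h1]; group
    rw [e1]; exact N.one_mem
  have he₀K : ZH K e₀ := ⟨supp_mono hCK hs0, fx_mono le_top he₀b.zh.2⟩
  -- domination
  have hebb : IsBlk ⊤ (JB M Bb) := g_blk hBb
  have hsb : Supp (Subgroup.centralizer (Db : Set (G ⧸ N))) (JB M Bb) :=
    idem_supp le_top hDbp hDbtop hebb.zh hebb.idem
  have hf1 : JB M Bb * f = f := by
    have h1 := hmf.2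
    rwa [br_eq_self hsb] at h1
  have hf2 : pq N e₀ * f = f := by
    rw [← hf1, ← mul_assoc, pq_mul_JB N hB hBb hinf]
  have hfb : IsBlk Kb f := hmf.1.blk
  -- a block of `K`
  obtain ⟨c₁, hc₁, hc₁0, hc₁f⟩ : ∃ c₁, IsBlk K c₁ ∧ e₀ * c₁ ≠ 0 ∧ pq N c₁ * f ≠ 0 := by
    obtain ⟨s, hs, hsum⟩ := exists_blocks (k := kM M) K
    by_contra hcon
    push Not at hcon
    apply hfb.ne
    have h1 : ∀ e ∈ s, pq N (e * e₀) * f = 0 := by
      intro e he
      by_cases h2 : e₀ * e = 0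
      · rw [← zh_comm he₀K (hs e he).zh, h2, pq_zero, zero_mul]
      · rw [pq_mul, mul_assoc, hf2]
        exact hcon e (hs e he) h2
    calc f = pq N ((∑ e ∈ s, e) * e₀) * f := by rw [hsum, one_mul, hf2]
      _ = ∑ e ∈ s, pq N (e * e₀) * f := by rw [Finset.sum_mul, pq_sum, Finset.sum_mul]
      _ = 0 := Finset.sum_eq_zero h1
  have hc₁e : e₀ * c₁ = c₁ := (hc₁.prim e₀ he₀K he₀b.idem).resolve_right hc₁0
  have hpc : pq N c₁ = f := by
    refine pq_blk N hNK hNp hreg hc₁ (by rw [hKmap]; exact hfb) ?_ hc₁f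
    exact blk_reg hM hfb
  -- a block of `C(D)`
  have hDK : D ≤ K := by
    intro d hd
    exact (hmemK d).2 fun k hk => hab d hd k hk
  have hsc : Supp (Subgroup.centralizer (D : Set G)) c₁ :=
    idem_supp hDK hD.pg (le_top.trans hDtop) hc₁.zh hc₁.idem
  have hc₁z : ZH (CH ⊤ D) c₁ := by
    refine ⟨by rw [CH_top]; exact hsc, fx_mono ?_ hc₁.zh.2⟩
    rw [CH_top]; exact hCK
  obtain ⟨c, hc, hc₁c⟩ := exists_block_of_idem hc₁z hc₁.idem hc₁.ne
  have hOf : Of p ⊤ e₀ D c := by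
    refine ⟨⟨le_top, hD.pg, hc⟩, ?_⟩
    rw [br_eq_self hs0, ← hc₁c, ← mul_assoc, hc₁e]
  have hmx : IsMx p ⊤ e₀ D c := isMx_of_isDef he₀b hD hOf
  refine nilp_of_normal hDn he₀b hmx ?_
  intro x hx hxp
  apply hfr x hxp
  rw [← hmemK]
  have hcx : IsBlk K (cj x c₁) := by
    have h1 := hc₁.cj x
    have h2 : K.map (MulAut.conj x).toMonoidHom = K :=
      cS_of_normalizer (by rw [Subgroup.normalizer_eq_top K]; exact Subgroup.mem_top x)
    rwa [h2] at h1
  have hcxc : cj x c₁ * c = c := by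
    have h1 := congrArg (cj x) hc₁c
    rwa [cj_mul, hx.2.2] at h1
  have hcc : cj x c₁ = c₁ := by
    refine hcx.eq_of_mul_ne hc₁ ?_
    intro h0
    apply hc.ne
    calc c = cj x c₁ * (c₁ * c) := by rw [hc₁c, hcxc]
      _ = (cj x c₁ * c₁) * c := by rw [mul_assoc]
      _ = 0 := by rw [h0, zero_mul]
  have hxT : (QuotientGroup.mk' N x) ∈ TS ⊤ Db f := by
    refine ⟨Subgroup.mem_top _, hDbtop (Subgroup.mem_top _), ?_⟩
    show cj (x : G ⧸ N) f = f
    rw [← hpc, ← pq_cj, hcc]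
  exact ⟨Subgroup.mem_top _, hTS hxT⟩

end Dom

theorem s4890_mp {M : Ideal AlgInt} {G : Type u} [Group G] [Fintype G] {p : ℕ} [hp : Fact p.Prime]
    (hM : IsPModular p M) {B : Set (IrrCharacter G)} (hB : IsPBlock M B) {D : Subgroup G}
    (hD : IsDefectGroup p M B D) (hDn : D.Normal) {d : ℕ}
    (hd : ∀ χ : IrrCharacter G, χ ∈ B → blockHeight p B (χ : G → ℂ) = 0 →
      charDegree (χ : G → ℂ) = d) : IsNilpotentBlock p M B := by
  classical
  haveI hPr : M.IsPrime := isPrime_of_modular hM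
  haveI : M.IsMaximal := hM.2.1
  haveI := charP_kM hM
  have hdef : IsDef p ⊤ (JB M B) D := (g_def hM hB).1 hD
  have hDp : IsPGroup p D := hdef.pg
  obtain ⟨N, hNdef⟩ : ∃ N, N = (frattini D).map D.subtype := ⟨_, rfl⟩
  haveI hNn : N.Normal := by
    rw [hNdef]
    infer_instance
  haveI : Fintype (G ⧸ N) := Fintype.ofFinite _
  have hND : N ≤ D := by rw [hNdef]; exact Subgroup.map_subtype_le _
  have hNp : IsPGroup p N := hDp.to_le hND
  have hab : ∀ x ∈ D, ∀ y ∈ D, x * y * x⁻¹ * y⁻¹ ∈ N := by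
    intro x hx y hy
    rw [hNdef]
    refine ⟨(⟨x, hx⟩ : D) * (⟨y, hy⟩ : D) * (⟨x, hx⟩ : D)⁻¹ * (⟨y, hy⟩ : D)⁻¹, ?_, ?_⟩
    · exact CfsgLib.SolvFrat.commutator_le_frattini hp.out hDp
        (Subgroup.commutator_mem_commutator (Subgroup.mem_top _) (Subgroup.mem_top _))
    · rfl
  set Db := D.map (QuotientGroup.mk' N) with hDb
  haveI hDbn : Db.Normal := hDn.map _ (QuotientGroup.mk'_surjective N)
  have hbab : ∀ x ∈ Db, ∀ y ∈ Db, x * y = y * x := by
    rintro _ ⟨x, hx, rfl⟩ _ ⟨y, hy, rfl⟩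
    have h1 := hab x hx y hy
    rw [← QuotientGroup.eq_one_iff] at h1
    have h2 : (QuotientGroup.mk' N) (x * y * x⁻¹ * y⁻¹) = 1 := h1
    rw [map_mul, map_mul, map_mul, map_inv, map_inv, mul_inv_eq_one, mul_inv_eq_iff_eq_mul] at h2
    exact h2
  have hfr : ∀ x : G, ¬ p ∣ orderOf x → (∀ k ∈ D, x * k * x⁻¹ * k⁻¹ ∈ N) →
      x ∈ Subgroup.centralizer (D : Set G) := by
    intro x hxp hx
    have hcen : (QuotientGroup.mk' N) x ∈ Subgroup.centralizer (Db : Set (G ⧸ N)) := by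
      rw [Subgroup.mem_centralizer_iff]
      rintro _ ⟨k, hk, rfl⟩
      have h1 := hx k hk
      rw [← QuotientGroup.eq_one_iff] at h1
      have h2 : (QuotientGroup.mk' N) (x * k * x⁻¹ * k⁻¹) = 1 := h1
      rw [map_mul, map_mul, map_mul, map_inv, map_inv, mul_inv_eq_one, mul_inv_eq_iff_eq_mul] at h2
      exact h2.symm
    have hle : Subgroup.zpowers x ≤
        (Subgroup.centralizer (Db : Set (G ⧸ N))).comap (QuotientGroup.mk' N) := by
      rw [Subgroup.zpowers_le]; exact hcen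
    have h1 := Cfsg.Agent.S0029.result (Subgroup.zpowers x) D
      (by rw [Subgroup.normalizer_eq_top D]; exact le_top) (by
        rw [Nat.card_zpowers]
        obtain ⟨n, hn⟩ := IsPGroup.iff_card.1 (hDp.to_subgroup (frattini D))
        rw [hn]
        exact Nat.Coprime.pow_right n ((Nat.Prime.coprime_iff_not_dvd hp.out).2 hxp).symm) (by
        intro a ha k hk
        rw [← hNdef, ← QuotientGroup.eq_one_iff]
        have h2 := Subgroup.mem_centralizer_iff.1 (hle ha) (QuotientGroup.mk' N k) ⟨k, hk, rfl⟩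
        show (QuotientGroup.mk' N) (a * k * a⁻¹ * k⁻¹) = 1
        rw [map_mul, map_mul, map_mul, map_inv, map_inv, ← h2]
        group)
    exact h1 (Subgroup.mem_zpowers x)
  obtain ⟨Bb, hBb, hinf, hdb⟩ := s4434 N hM hNp hB
  have hDbd : IsDefectGroup p M Bb Db := (hdb Db).2 ⟨D, hD, rfl⟩
  have hdefb : IsDef p ⊤ (JB M Bb) Db := (g_def hM hBb).1 hDbd
  obtain ⟨f, hf⟩ := exists_of_br_ne (g_blk hBb) hdefb.le hdefb.pg hdefb.br
  have hmxb : IsMx p ⊤ (JB M Bb) Db f := isMx_of_isDef (g_blk hBb) hdefb hf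
  -- heights
  have hht : ∀ ξ ∈ Bb, blockHeight p Bb (ξ : G ⧸ N → ℂ) = 0 ∧
      blockHeight p B (infl N ξ : G → ℂ) = 0 := by
    intro ξ hξ
    have h1 := degree_eq hM hBb hξ
    have h2 := degree_eq hM hB (hinf ξ hξ)
    have h3 : charDegree (infl N ξ : G → ℂ) = charDegree (ξ : G ⧸ N → ℂ) := rfl
    have h4 : (Nat.card Db).factorization p = blockDefect p Bb := by
      rw [card_defectGroup hM hBb hDbd, hp.out.factorization_pow, Finsupp.single_eq_same]
    have h5 : (Nat.card D).factorization p = blockDefect p B := by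
      rw [card_defectGroup hM hB hD, hp.out.factorization_pow, Finsupp.single_eq_same]
    have h6 := card_quot (p := p) N
    have h7 : (Nat.card D).factorization p =
        (Nat.card Db).factorization p + (Nat.card N).factorization p := by
      rw [card_map_mk N D, inf_eq_right.2 hND,
        Nat.factorization_mul Nat.card_pos.ne' Nat.card_pos.ne', Finsupp.add_apply]
    have h8 := CfsgLib.CharMore.ito ξ.2 Db hbab
    have h9 : (charDegree (ξ : G ⧸ N → ℂ)).factorization p ≤ (Db.index).factorization p :=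
      (Nat.factorization_le_iff_dvd (CfsgLib.CharInt.irr_charDegree_pos ξ.2).ne'
        Subgroup.index_ne_zero_of_finite).mpr h8 p
    have h10 : (Nat.card (G ⧸ N)).factorization p =
        (Nat.card Db).factorization p + (Db.index).factorization p := by
      rw [← Subgroup.card_mul_index Db,
        Nat.factorization_mul Nat.card_pos.ne' Subgroup.index_ne_zero_of_finite, Finsupp.add_apply]
    rw [h3] at h2
    omega
  obtain ⟨ξ₀, hξ₀⟩ := block_nonempty hPr hBb
  have hdeg : ∀ ξ ∈ Bb, charDegree (ξ : G ⧸ N → ℂ) = d := by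
    intro ξ hξ
    have h1 := hd (infl N ξ) (hinf ξ hξ) (hht ξ hξ).2
    exact h1
  have hd0 : 0 < d := by
    rw [← hdeg ξ₀ hξ₀]; exact CfsgLib.CharInt.irr_charDegree_pos ξ₀.2
  have hnilb : IsNilpotentBlock p M Bb :=
    nilp_of_eq_deg hM hBb hmxb hbab hd0 hdeg fun ξ hξ => (hht ξ hξ).1
  rw [nilp_iff_g hM hBb, nilp_abelian (g_blk hBb) hmxb hbab] at hnilb
  rw [nilp_iff_g hM hB]
  exact nilp_transfer N hM hB hDn hdef hND hab hfr hBb hinf hf hnilb

theorem s4890_mpr {M : Ideal AlgInt} {G : Type u} [Group G] [Fintype G] {p : ℕ} [hp : Fact p.Prime]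
    (hM : IsPModular p M) {B : Set (IrrCharacter G)} {D : Subgroup G}
    (hD : IsDefectGroup p M B D) (hnil : IsNilpotentBlock p M B) :
    ∃ d : ℕ, ∀ χ : IrrCharacter G, χ ∈ B → blockHeight p B (χ : G → ℂ) = 0 →
      charDegree (χ : G → ℂ) = d := by
  classical
  have hB : IsPBlock M B := hnil.1
  obtain ⟨χ₀, h0, hh0, Φ, hΦB, _, hsurj, hval⟩ := nil_main hM hnil hD
  refine ⟨charDegree (χ₀ : G → ℂ), ?_⟩
  intro χ hχ hh
  obtain ⟨η, rfl⟩ := hsurj χ hχ
  have h1 := hval η 1 (by rw [orderOf_one]; exact hp.out.not_dvd_one)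
  rw [CfsgLib.CharInt.irr_one_eq_charDegree (Φ η).2, CfsgLib.CharInt.irr_one_eq_charDegree η.2,
    CfsgLib.CharInt.irr_one_eq_charDegree χ₀.2] at h1
  have h2 : charDegree (Φ η : G → ℂ) = charDegree (η : D → ℂ) * charDegree (χ₀ : G → ℂ) := by
    exact_mod_cast h1
  have h3 : charDegree (η : D → ℂ) ≠ 0 := (CfsgLib.CharInt.irr_charDegree_pos η.2).ne'
  have h4 := height_of_mul h0 hh0 h3 h2
  rw [hh] at h4
  have h5 : charDegree (η : D → ℂ) ∣ Nat.card D := CfsgLib.CharInt2.charDegree_dvd_card η.2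
  have h6 := card_defectGroup hM hB hD
  rw [h6] at h5
  obtain ⟨j, _, hj⟩ := (Nat.dvd_prime_pow hp.out).1 h5
  rw [hj, hp.out.factorization_pow, Finsupp.single_eq_same] at h4
  rw [h2, hj, ← h4, pow_zero, one_mul]

theorem s4890 {M : Ideal AlgInt} {G : Type u} [Group G] [Fintype G] {p : ℕ} [hp : Fact p.Prime]
    (hM : IsPModular p M) {B : Set (IrrCharacter G)} (hB : IsPBlock M B) {D : Subgroup G}
    (hD : IsDefectGroup p M B D) (hDn : D.Normal) :
    (∃ d : ℕ, ∀ χ : IrrCharacter G, χ ∈ B → blockHeight p B (χ : G → ℂ) = 0 →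
      charDegree (χ : G → ℂ) = d) ↔ IsNilpotentBlock p M B :=
  ⟨fun ⟨_, hd⟩ => s4890_mp hM hB hD hDn hd, fun h => s4890_mpr hM hD h⟩

end CfsgLib.Star
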