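import Cfsg.Agent.S4089

/-! Counting the subnormalizer (helper12) -/

set_option autoImplicit false
set_option linter.all false

namespace CfsgLib.SubnorH12

open Subgroup Cfsg
open scoped Classical Pointwise

section poset

variable {α : Type*} [PartialOrder α]

noncomputable def E (s : Finset α) (x : α) : ℤ :=
  1 - ∑ y ∈ (s.filter (fun y => x < y)).attach, E s y.1
termination_by (s.filter (fun y => x < y)).card
decreasing_by
  have h := y.2
  rw [Finset.mem_filter] at h
  apply Finset.card_lt_card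
  rw [Finset.ssubset_iff_of_subset]
  · refine ⟨y.1, Finset.mem_filter.2 h, ?_⟩
    intro h2
    exact lt_irrefl _ (Finset.mem_filter.1 h2).2
  · intro z hz
    rw [Finset.mem_filter] at hz ⊢
    exact ⟨hz.1, h.2.trans hz.2⟩

theorem E_eq (s : Finset α) (x : α) : E s x = 1 - ∑ y ∈ s.filter (fun y => x < y), E s y := by
  rw [E, Finset.sum_attach (s.filter (fun y => x < y)) (fun y => E s y)]

theorem sum_eq (s : Finset α) {x : α} (hx : x ∈ s) (F : α → ℤ) :
    ∑ y ∈ s.filter (fun y => x ≤ y), F y = F x + ∑ y ∈ s.filter (fun y => x < y), F y := by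
  have h1 : s.filter (fun y => x ≤ y) = insert x (s.filter (fun y => x < y)) := by
    ext y
    rw [Finset.mem_filter, Finset.mem_insert, Finset.mem_filter]
    constructor
    · rintro ⟨h1, h2⟩
      rcases eq_or_lt_of_le h2 with h3 | h3
      · exact Or.inl h3.symm
      · exact Or.inr ⟨h1, h3⟩
    · rintro (rfl | ⟨h1, h2⟩)
      · exact ⟨hx, le_rfl⟩
      · exact ⟨h1, h2.le⟩
  rw [h1, Finset.sum_insert]
  rw [Finset.mem_filter]
  exact fun h => lt_irrefl _ h.2

theorem sum_E (s : Finset α) {x : α} (hx : x ∈ s) : ∑ y ∈ s.filter (fun y => x ≤ y), E s y = 1 := by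
  rw [sum_eq s hx, E_eq s x]; ring

theorem E_unique (s : Finset α) (R : α) (F : α → ℤ)
    (hF : ∀ x ∈ s, R ≤ x → ∑ y ∈ s.filter (fun y => x ≤ y), F y = 1) : ∀ x ∈ s, R ≤ x → F x = E s x := by
  intro x hx hR
  induction hn : (s.filter (fun y => x < y)).card using Nat.strong_induction_on generalizing x with
  | _ n ih =>
    have h1 := hF x hx hR
    rw [sum_eq s hx] at h1
    rw [E_eq s x]
    have h2 : ∑ y ∈ s.filter (fun y => x < y), F y = ∑ y ∈ s.filter (fun y => x < y), E s y := by
      apply Finset.sum_congr rfl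
      intro y hy
      rw [Finset.mem_filter] at hy
      refine ih _ ?_ y hy.1 (hR.trans hy.2.le) rfl
      rw [← hn]
      apply Finset.card_lt_card
      rw [Finset.ssubset_iff_of_subset]
      · refine ⟨y, Finset.mem_filter.2 hy, ?_⟩
        intro h2
        exact lt_irrefl _ (Finset.mem_filter.1 h2).2
      · intro z hz
        rw [Finset.mem_filter] at hz ⊢
        exact ⟨hz.1, hy.2.trans hz.2⟩
    rw [← h2]; linarith

end poset

section conj

variable {G : Type*} [Group G] [Finite G]

theorem conj_eq_iff {X : Subgroup G} {g h : G} :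
    X.map (MulAut.conj g).toMonoidHom = X.map (MulAut.conj h).toMonoidHom ↔ h⁻¹ * g ∈ normalizer (X : Set G) := by
  rw [mem_normalizer_iff]
  constructor
  · intro h1 x
    have h2 : g * x * g⁻¹ ∈ X.map (MulAut.conj g).toMonoidHom ↔ g * x * g⁻¹ ∈ X.map (MulAut.conj h).toMonoidHom := by rw [h1]
    have e1 : g * x * g⁻¹ ∈ X.map (MulAut.conj g).toMonoidHom ↔ x ∈ X := by
      constructor
      · rintro ⟨y, hy, hxy⟩
        have : g * y * g⁻¹ = g * x * g⁻¹ := hxy
        have : y = x := by
          have := mul_right_cancel this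
          exact mul_left_cancel this
        rw [← this]; exact hy
      · intro hx
        exact ⟨x, hx, rfl⟩
    have e2 : g * x * g⁻¹ ∈ X.map (MulAut.conj h).toMonoidHom ↔ (h⁻¹ * g) * x * (h⁻¹ * g)⁻¹ ∈ X := by
      constructor
      · rintro ⟨y, hy, hxy⟩
        have h3 : h * y * h⁻¹ = g * x * g⁻¹ := hxy
        have : (h⁻¹ * g) * x * (h⁻¹ * g)⁻¹ = y := by
          calc (h⁻¹ * g) * x * (h⁻¹ * g)⁻¹ = h⁻¹ * (g * x * g⁻¹) * h := by group
            _ = h⁻¹ * (h * y * h⁻¹) * h := by rw [h3]
            _ = y := by group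
        rw [this]; exact hy
      · intro hx
        refine ⟨_, hx, ?_⟩
        show h * ((h⁻¹ * g) * x * (h⁻¹ * g)⁻¹) * h⁻¹ = _
        group
    rw [← e1, h2, e2]
  · intro h1
    ext x
    have e1 : ∀ k : G, x ∈ X.map (MulAut.conj k).toMonoidHom ↔ k⁻¹ * x * k ∈ X := by
      intro k
      constructor
      · rintro ⟨y, hy, hxy⟩
        have h3 : k * y * k⁻¹ = x := hxy
        rw [← h3]
        have : k⁻¹ * (k * y * k⁻¹) * k = y := by group
        rw [this]; exact hy
      · intro hx
        refine ⟨_, hx, ?_⟩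
        show k * (k⁻¹ * x * k) * k⁻¹ = _
        group
    rw [e1, e1, h1]
    have : h⁻¹ * g * (g⁻¹ * x * g) * (h⁻¹ * g)⁻¹ = h⁻¹ * x * h := by group
    rw [this]

/-- fibres of conjugation -/
theorem card_conj (X : Subgroup G) (P : Subgroup G → Prop) :
    Nat.card {g : G // P (X.map (MulAut.conj g).toMonoidHom)} =
      Nat.card {Y : Subgroup G // P Y ∧ ∃ g : G, Y = X.map (MulAut.conj g).toMonoidHom} * Nat.card (normalizer (X : Set G)) := by
  classical
  rw [← Nat.card_prod]
  have key : ∀ Y : {Y : Subgroup G // P Y ∧ ∃ g : G, Y = X.map (MulAut.conj g).toMonoidHom},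
      (Y : Subgroup G) = X.map (MulAut.conj Y.2.2.choose).toMonoidHom := fun Y => Y.2.2.choose_spec
  refine Nat.card_congr ⟨fun g => (⟨_, g.2, g.1, rfl⟩, ⟨(Exists.choose (⟨g.1, rfl⟩ : ∃ h : G, X.map (MulAut.conj g.1).toMonoidHom = X.map (MulAut.conj h).toMonoidHom))⁻¹ * g.1, ?_⟩),
    fun x => ⟨x.1.2.2.choose * x.2.1, ?_⟩, ?_, ?_⟩
  · exact conj_eq_iff.1 (Exists.choose_spec (⟨g.1, rfl⟩ : ∃ h : G, X.map (MulAut.conj g.1).toMonoidHom = X.map (MulAut.conj h).toMonoidHom))
  · have h1 : X.map (MulAut.conj (x.1.2.2.choose * x.2.1)).toMonoidHom = x.1.1 :=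
      (conj_eq_iff.2 (by rw [inv_mul_cancel_left]; exact x.2.2)).trans (key x.1).symm
    rw [h1]; exact x.1.2.1
  · intro g
    apply Subtype.ext
    show _ * (_⁻¹ * g.1) = g.1
    rw [mul_inv_cancel_left]
  · rintro ⟨Y, n⟩
    have h1 : X.map (MulAut.conj (Y.2.2.choose * n.1)).toMonoidHom = Y.1 :=
      (conj_eq_iff.2 (by rw [inv_mul_cancel_left]; exact n.2)).trans (key Y).symm
    apply Prod.ext
    · exact Subtype.ext h1
    · apply Subtype.ext
      show (Exists.choose _)⁻¹ * (Y.2.2.choose * n.1) = n.1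
      have h2 : ∀ (Z : Subgroup G) (hZ : Z = Y.1) (e : ∃ h : G, Z = X.map (MulAut.conj h).toMonoidHom),
          e.choose⁻¹ * (Y.2.2.choose * n.1) = n.1 := by
        rintro Z rfl e
        show (Y.2.2.choose)⁻¹ * _ = _
        rw [inv_mul_cancel_left]
      exact h2 _ h1 _

end conj

section grp

variable {G : Type*} [Group G] [Finite G]

noncomputable instance : Fintype (Subgroup G) := Fintype.ofFinite _

noncomputable def S (p : ℕ) (M : Subgroup G) (g : G) : Finset (Subgroup G) :=
  Finset.univ.filter (fun R => R ≤ M ∧ IsPGroup p R ∧ g ∈ normalizer (R : Set G))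

theorem mem_S {p : ℕ} {M : Subgroup G} {g : G} {R : Subgroup G} :
    R ∈ S p M g ↔ R ≤ M ∧ IsPGroup p R ∧ g ∈ normalizer (R : Set G) := by
  rw [S, Finset.mem_filter]; simp

variable {p : ℕ} [hp : Fact p.Prime]

/-- proper subgroups of `p`-groups grow in their normalizer -/
theorem norm_grow {R R' : Subgroup G} (hR' : IsPGroup p R') (h : R ≤ R') (h2 : R' ⊓ normalizer (R : Set G) ≤ R) : R' = R := by
  haveI := hR'.isNilpotent
  have hnc : NormalizerCondition R' := Group.normalizerCondition_of_isNilpotent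
  by_contra hne
  have h3 : R.subgroupOf R' < ⊤ := by
    rw [lt_top_iff_ne_top, Ne, subgroupOf_eq_top]
    intro h4
    exact hne (le_antisymm h4 h)
  have h4 := hnc _ h3
  obtain ⟨x, hx, hx2⟩ := SetLike.exists_of_lt h4
  apply hx2
  rw [mem_subgroupOf]
  apply h2
  refine mem_inf.2 ⟨x.2, ?_⟩
  rw [mem_normalizer_iff] at hx ⊢
  intro y
  constructor
  · intro hy
    exact (hx ⟨y, h hy⟩).1 hy
  · intro hy
    have h5 : y ∈ R' := by
      have := R'.mul_mem (R'.mul_mem (R'.inv_mem x.2) (h hy)) x.2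
      have h6 : (x : G)⁻¹ * (x * y * (x : G)⁻¹) * x = y := by group
      rwa [h6] at this
    exact (hx ⟨y, h5⟩).2 hy

/-- replacing the group by a normalizer -/
theorem E_interior {M R : Subgroup G} (hRM : R ≤ M) (hR : IsPGroup p R) {g : G} (hg : g ∈ M ⊓ normalizer (R : Set G)) :
    E (S p M g) R = E (S p (M ⊓ normalizer (R : Set G)) g) R := by
  set N := M ⊓ normalizer (R : Set G) with hN
  have hRN : R ≤ N := le_inf hRM le_normalizer
  have hgR : R ∈ S p N g := mem_S.2 ⟨hRN, hR, hg.2⟩
  have key := E_unique (S p N g) R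
    (fun y => ∑ R' ∈ (S p M g).filter (fun R' => R ≤ R' ∧ R' ⊓ N = y), E (S p M g) R') ?_ R hgR le_rfl
  · rw [← key]
    have h1 : (S p M g).filter (fun R' => R ≤ R' ∧ R' ⊓ N = R) = {R} := by
      ext R'
      rw [Finset.mem_filter, Finset.mem_singleton, mem_S]
      constructor
      · rintro ⟨⟨h1, h2, h3⟩, h4, h5⟩
        apply norm_grow h2 h4
        have h6 : R' ⊓ normalizer (R : Set G) ≤ R' ⊓ N := le_inf inf_le_left (le_inf (inf_le_left.trans h1) inf_le_right)
        exact h6.trans h5.le
      · rintro rfl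
        exact ⟨⟨hRM, hR, hg.2⟩, le_rfl, inf_eq_left.2 hRN⟩
    rw [h1, Finset.sum_singleton]
  · intro x hx hRx
    have hx' := mem_S.1 hx
    have hxM : x ∈ S p M g := mem_S.2 ⟨hx'.1.trans inf_le_left, hx'.2⟩
    rw [← sum_E (S p M g) hxM, ← Finset.sum_biUnion]
    · apply Finset.sum_congr _ (fun _ _ => rfl)
      ext R'
      rw [Finset.mem_biUnion, Finset.mem_filter]
      constructor
      · rintro ⟨y, hy, hR'⟩
        rw [Finset.mem_filter] at hy hR'
        refine ⟨hR'.1, ?_⟩
        rw [← hR'.2.2] at hy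
        exact hy.2.trans inf_le_left
      · rintro ⟨h1, h2⟩
        have h1' := mem_S.1 h1
        have hgN : g ∈ normalizer ((R' ⊓ N : Subgroup G) : Set G) := by
          have h3 : g ∈ normalizer (N : Set G) := le_normalizer hg
          rw [mem_normalizer_iff]
          intro y
          exact and_congr (mem_normalizer_iff.1 h1'.2.2 y) (mem_normalizer_iff.1 h3 y)
        refine ⟨R' ⊓ N, Finset.mem_filter.2 ⟨mem_S.2 ⟨inf_le_right, h1'.2.1.to_le inf_le_left, hgN⟩, le_inf h2 hx'.1⟩, ?_⟩
        rw [Finset.mem_filter]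
        exact ⟨h1, hRx.trans h2, rfl⟩
    · intro y hy z hz hyz
      rw [Function.onFun, Finset.disjoint_left]
      intro R' h1 h2
      rw [Finset.mem_filter] at h1 h2
      exact hyz (h1.2.2.symm.trans h2.2.2)

/-- for a maximal `p`-subgroup -/
theorem E_max {M R : Subgroup G} {g : G} (h : ∀ R' : Subgroup G, R < R' → R' ≤ M → ¬ IsPGroup p R') : E (S p M g) R = 1 := by
  rw [E_eq]
  have : (S p M g).filter (fun y => R < y) = ∅ := by
    rw [Finset.filter_eq_empty_iff]
    intro y hy hlt
    have := mem_S.1 hy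
    exact h y hlt this.1 this.2.1
  rw [this, Finset.sum_empty, sub_zero]

def IsMaxP (p : ℕ) (M R : Subgroup G) : Prop := R ≤ M ∧ IsPGroup p R ∧ ∀ R' : Subgroup G, R < R' → R' ≤ M → ¬ IsPGroup p R'

def toSyl {M R : Subgroup G} (h : IsMaxP p M R) : Sylow p M where
  toSubgroup := R.subgroupOf M
  isPGroup' := h.2.1.comap_of_injective _ (subtype_injective _)
  is_maximal' := by
    intro Q hQ hle
    by_contra hne
    have h1 : R < Q.map M.subtype := by
      refine lt_of_le_of_ne ?_ ?_
      · intro x hx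
        exact ⟨⟨x, h.1 hx⟩, hle hx, rfl⟩
      · intro h2
        apply hne
        ext x
        rw [mem_subgroupOf, h2]
        constructor
        · intro hx
          exact ⟨x, hx, rfl⟩
        · rintro ⟨y, hy, hxy⟩
          have : y = x := Subtype.ext hxy
          rw [← this]; exact hy
    exact h.2.2 _ h1 (map_subtype_le Q) (hQ.map _)

theorem conj_mul (X : Subgroup G) (h m : G) : (X.map (MulAut.conj m).toMonoidHom).map (MulAut.conj h).toMonoidHom =
    X.map (MulAut.conj (h * m)).toMonoidHom := by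
  rw [map_map]
  congr 1
  ext x
  simp [mul_assoc]

theorem max_conj {M R R' : Subgroup G} (h : IsMaxP p M R) (h' : IsMaxP p M R') :
    ∃ m ∈ M, R' = R.map (MulAut.conj m).toMonoidHom := by
  obtain ⟨m, hm⟩ := MulAction.exists_smul_eq M (toSyl h) (toSyl h')
  refine ⟨m, m.2, ?_⟩
  have h1 : ∀ x : M, x ∈ R'.subgroupOf M ↔ m⁻¹ * x * m ∈ R.subgroupOf M := by
    intro x
    have h2 : (x ∈ (toSyl h' : Subgroup M)) ↔ x ∈ (m • toSyl h : Sylow p M) := by rw [hm]; rfl
    have h3 : x ∈ (m • toSyl h : Sylow p M) ↔ m⁻¹ * x * m ∈ (toSyl h : Subgroup M) := by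
      constructor
      · rintro ⟨y, hy, hxy⟩
        have : m * y * m⁻¹ = x := hxy
        rw [← this]
        have : m⁻¹ * (m * y * m⁻¹) * m = y := by group
        rw [this]; exact hy
      · intro hx
        refine ⟨_, hx, ?_⟩
        show m * (m⁻¹ * x * m) * m⁻¹ = x
        group
    exact h2.trans h3
  ext x
  constructor
  · intro hx
    refine ⟨(m : G)⁻¹ * x * m, (h1 ⟨x, h'.1 hx⟩).1 hx, ?_⟩
    show (m : G) * ((m : G)⁻¹ * x * m) * (m : G)⁻¹ = x
    group
  · rintro ⟨y, hy, hxy⟩
    have h2 : (m : G) * y * (m : G)⁻¹ = x := hxy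
    have hxM : x ∈ M := by rw [← h2]; exact M.mul_mem (M.mul_mem m.2 (h.1 hy)) (M.inv_mem m.2)
    refine (h1 ⟨x, hxM⟩).2 ?_
    rw [mem_subgroupOf]
    show (m : G)⁻¹ * x * m ∈ R
    rw [← h2]
    have : (m : G)⁻¹ * (m * y * (m : G)⁻¹) * m = y := by group
    rw [this]; exact hy

theorem exists_max {M R : Subgroup G} (hRM : R ≤ M) (hR : IsPGroup p R) : ∃ Q, R ≤ Q ∧ IsMaxP p M Q := by
  obtain ⟨Q, hle, hQ⟩ := (Set.toFinite {Q : Subgroup G | Q ≤ M ∧ IsPGroup p Q}).exists_le_maximal (a := R) ⟨hRM, hR⟩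
  refine ⟨Q, hle, hQ.1.1, hQ.1.2, ?_⟩
  intro R' h1 h2 h3
  exact absurd (hQ.2 ⟨h2, h3⟩ h1.le) (not_le_of_gt h1)

theorem max_conj' {M R : Subgroup G} (h : IsMaxP p M R) {m : G} (hm : m ∈ M) : IsMaxP p M (R.map (MulAut.conj m).toMonoidHom) := by
  refine ⟨?_, h.2.1.map _, ?_⟩
  · rintro _ ⟨x, hx, rfl⟩
    exact M.mul_mem (M.mul_mem hm (h.1 hx)) (M.inv_mem hm)
  · intro R' h1 h2 h3
    refine h.2.2 (R'.map (MulAut.conj m⁻¹).toMonoidHom) ?_ ?_ (h3.map _)
    · have e : R = (R.map (MulAut.conj m).toMonoidHom).map (MulAut.conj m⁻¹).toMonoidHom := by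
        rw [conj_mul, inv_mul_cancel, map_one]
        exact (Subgroup.map_id R).symm
      conv_lhs => rw [e]
      exact (Subgroup.map_lt_map_iff_of_injective (MulEquiv.injective (MulAut.conj m⁻¹))).2 h1
    · rintro _ ⟨x, hx, rfl⟩
      exact M.mul_mem (M.mul_mem (M.inv_mem hm) (h2 hx)) (M.inv_mem (M.inv_mem hm))

end grp

section count

variable {G : Type*} [Group G] [Fintype G] {p : ℕ} [hp : Fact p.Prime]

theorem card_filter (M : Subgroup G) : (Finset.univ.filter (fun g => g ∈ M)).card = Nat.card M := by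
  rw [Nat.card_eq_fintype_card, Fintype.card_subtype]

theorem sum_max (M : Subgroup G) :
    ∑ R ∈ Finset.univ.filter (fun R => IsMaxP p M R), Nat.card (M ⊓ normalizer (R : Set G) : Subgroup G) = Nat.card M := by
  obtain ⟨R0, -, h0⟩ := exists_max (p := p) (M := M) bot_le IsPGroup.of_bot
  rw [← card_filter M, Finset.card_eq_sum_card_fiberwise (f := fun g => R0.map (MulAut.conj g).toMonoidHom)
    (t := Finset.univ.filter (fun R => IsMaxP p M R))]
  · apply Finset.sum_congr rfl
    intro R hR
    rw [Finset.mem_filter] at hR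
    obtain ⟨m, hm, hRm⟩ := max_conj h0 hR.2
    rw [← card_filter]
    apply Finset.card_bij (fun h _ => h * m)
    · intro h hh
      rw [Finset.mem_filter] at hh
      rw [Finset.mem_filter, Finset.mem_filter]
      refine ⟨⟨Finset.mem_univ _, M.mul_mem hh.2.1 hm⟩, ?_⟩
      rw [← conj_mul, ← hRm]
      have h1 : R.map (MulAut.conj h).toMonoidHom = R.map (MulAut.conj 1).toMonoidHom := by
        rw [conj_eq_iff, inv_one, one_mul]; exact hh.2.2
      rw [h1, map_one]
      exact Subgroup.map_id R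
    · intro a _ b _ hab
      exact mul_right_cancel hab
    · intro g hg
      rw [Finset.mem_filter, Finset.mem_filter] at hg
      refine ⟨g * m⁻¹, ?_, by group⟩
      rw [Finset.mem_filter]
      refine ⟨Finset.mem_univ _, M.mul_mem hg.1.2 (M.inv_mem hm), ?_⟩
      have h1 : R.map (MulAut.conj (g * m⁻¹)).toMonoidHom = R.map (MulAut.conj 1).toMonoidHom := by
        conv_lhs => rw [hRm]
        rw [conj_mul, inv_mul_cancel_right, hg.2, map_one]
        exact (Subgroup.map_id R).symm
      rw [conj_eq_iff, inv_one, one_mul] at h1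
      exact h1
  · intro g hg
    have hg' := (Finset.mem_filter.1 hg).2
    exact Finset.mem_coe.2 (Finset.mem_filter.2 ⟨Finset.mem_univ _, max_conj' h0 hg'⟩)

theorem A_zero : ∀ (n : ℕ) (M R : Subgroup G), Nat.card M - Nat.card R = n → R ≤ M → M ≤ normalizer (R : Set G) →
    IsPGroup p R → ¬ IsMaxP p M R → ∑ g ∈ Finset.univ.filter (fun g => g ∈ M), E (S p M g) R = 0 := by
  intro n
  induction n using Nat.strong_induction_on with
  | _ n ih =>
    intro M R hn hRM hMR hR hns
    set U := Finset.univ.filter (fun R' : Subgroup G => R ≤ R' ∧ R' ≤ M ∧ IsPGroup p R') with hU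
    -- the double count
    have h1 : (Nat.card M : ℤ) = ∑ g ∈ Finset.univ.filter (fun g => g ∈ M),
        ∑ R' ∈ (S p M g).filter (fun R' => R ≤ R'), E (S p M g) R' := by
      rw [← card_filter M, Finset.card_eq_sum_ones, Nat.cast_sum]
      apply Finset.sum_congr rfl
      intro g hg
      rw [Finset.mem_filter] at hg
      rw [sum_E (S p M g) (mem_S.2 ⟨hRM, hR, hMR hg.2⟩)]
      rfl
    have h2 : ∑ g ∈ Finset.univ.filter (fun g => g ∈ M),
        ∑ R' ∈ (S p M g).filter (fun R' => R ≤ R'), E (S p M g) R' =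
        ∑ R' ∈ U, ∑ g ∈ Finset.univ.filter (fun g => g ∈ M ⊓ normalizer (R' : Set G)), E (S p M g) R' := by
      apply Finset.sum_comm'
      intro g R'
      simp only [Finset.mem_filter, Finset.mem_univ, true_and, mem_S, hU, mem_inf]
      tauto
    have hmR : ∀ R', IsMaxP p M R' → R ≤ R' := by
      intro R' hR'
      have h3 : IsPGroup p (R ⊔ R' : Subgroup G) := by
        exact IsPGroup.to_sup_of_normal_left' hR hR'.2.1 (hR'.1.trans hMR)
      by_contra hne
      refine hR'.2.2 _ ?_ (sup_le hRM hR'.1) h3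
      refine lt_of_le_of_ne le_sup_right ?_
      intro h4
      exact hne (by rw [h4]; exact le_sup_left)
    have h3 : ∀ R' ∈ U, R' ≠ R → ∑ g ∈ Finset.univ.filter (fun g => g ∈ M ⊓ normalizer (R' : Set G)), E (S p M g) R' =
        if IsMaxP p M R' then (Nat.card (M ⊓ normalizer (R' : Set G) : Subgroup G) : ℤ) else 0 := by
      intro R' hR' hne
      simp only [hU, Finset.mem_filter, Finset.mem_univ, true_and] at hR'
      obtain ⟨h4, h5, h6⟩ := hR'
      split_ifs with hmx
      · rw [← card_filter, Finset.card_eq_sum_ones, Nat.cast_sum]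
        apply Finset.sum_congr rfl
        intro g hg
        rw [E_max hmx.2.2]; rfl
      · have hRN : R' ≤ M ⊓ normalizer (R' : Set G) := le_inf h5 le_normalizer
        have h7 : ∑ g ∈ Finset.univ.filter (fun g => g ∈ M ⊓ normalizer (R' : Set G)), E (S p M g) R' =
            ∑ g ∈ Finset.univ.filter (fun g => g ∈ M ⊓ normalizer (R' : Set G)), E (S p (M ⊓ normalizer (R' : Set G)) g) R' := by
          apply Finset.sum_congr rfl
          intro g hg
          rw [Finset.mem_filter] at hg
          exact E_interior h5 h6 hg.2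
        rw [h7]
        have hlt : R < R' := lt_of_le_of_ne h4 (Ne.symm hne)
        have c1 : Nat.card R < Nat.card R' := by
          apply Set.ncard_lt_ncard (s := (R : Set G)) (t := (R' : Set G)) _ (Set.toFinite _)
          exact hlt
        have c2 : Nat.card R' ≤ Nat.card (M ⊓ normalizer (R' : Set G) : Subgroup G) := Subgroup.card_le_of_le hRN
        have c3 : Nat.card (M ⊓ normalizer (R' : Set G) : Subgroup G) ≤ Nat.card M := Subgroup.card_le_of_le inf_le_left
        refine ih _ (by omega) (M ⊓ normalizer (R' : Set G)) R' rfl hRN inf_le_right h6 ?_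
        intro hmx2
        apply hmx
        refine ⟨h5, h6, ?_⟩
        intro R'' h8 h9 h10
        have h11 : R'' ⊓ normalizer (R' : Set G) ≤ R' := by
          by_contra h12
          refine hmx2.2.2 (R'' ⊓ normalizer (R' : Set G)) ?_ (inf_le_inf_right _ h9) (h10.to_le inf_le_left)
          refine lt_of_le_of_ne (le_inf h8.le le_normalizer) ?_
          intro h13
          exact h12 h13.symm.le
        exact h8.ne (norm_grow h10 h8.le h11).symm
    have hRU : R ∈ U := by
      simp only [hU, Finset.mem_filter, Finset.mem_univ, true_and]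
      exact ⟨le_rfl, hRM, hR⟩
    rw [h2, ← Finset.add_sum_erase _ _ hRU] at h1
    have h4 : ∑ R' ∈ U.erase R, ∑ g ∈ Finset.univ.filter (fun g => g ∈ M ⊓ normalizer (R' : Set G)), E (S p M g) R' = (Nat.card M : ℤ) := by
      rw [Finset.sum_congr rfl (fun R' hR' => h3 R' (Finset.mem_of_mem_erase hR') (Finset.ne_of_mem_erase hR')),
        ← Finset.sum_filter]
      have h5 : (U.erase R).filter (fun R' => IsMaxP p M R') = Finset.univ.filter (fun R' => IsMaxP p M R') := by
        ext R'
        simp only [hU, Finset.mem_filter, Finset.mem_univ, true_and, Finset.mem_erase]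
        constructor
        · rintro ⟨-, h⟩; exact h
        · intro h
          exact ⟨⟨fun h6 => hns (h6 ▸ h), hmR R' h, h.1, h.2.1⟩, h⟩
      rw [h5, ← Nat.cast_sum, sum_max]
    rw [h4] at h1
    have h5 : M ⊓ normalizer (R : Set G) = M := inf_eq_left.2 hMR
    rw [h5] at h1
    linarith

theorem main_count (H : Subgroup G) (hH : IsPGroup p H) :
    Nat.card {g : G // ∃ T : Subgroup G, IsPGroup p T ∧ H ≤ T ∧ g ∈ normalizer (T : Set G)} =
      ∑ R ∈ Finset.univ.filter (fun R => IsMaxP p ⊤ R ∧ H ≤ R), Nat.card (normalizer (R : Set G)) := by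
  have hz : (Nat.card {g : G // ∃ T : Subgroup G, IsPGroup p T ∧ H ≤ T ∧ g ∈ normalizer (T : Set G)} : ℤ) =
      ∑ R ∈ Finset.univ.filter (fun R => IsMaxP p ⊤ R ∧ H ≤ R), (Nat.card (normalizer (R : Set G)) : ℤ) := by
    have h1 : (Nat.card {g : G // ∃ T : Subgroup G, IsPGroup p T ∧ H ≤ T ∧ g ∈ normalizer (T : Set G)} : ℤ) =
        ∑ g : G, ∑ R ∈ (S p ⊤ g).filter (fun R => H ≤ R), E (S p ⊤ g) R := by
      rw [Nat.card_eq_fintype_card, Fintype.card_subtype, Finset.card_filter, Nat.cast_sum]
      apply Finset.sum_congr rfl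
      intro g _
      split_ifs with h
      · -- the closure
        obtain ⟨T, hT1, hT2, hT3⟩ := h
        set C := sInf {T : Subgroup G | IsPGroup p T ∧ H ≤ T ∧ g ∈ normalizer (T : Set G)} with hC
        have hHC : H ≤ C := le_sInf (fun T hT => hT.2.1)
        have hCT : C ≤ T := sInf_le ⟨hT1, hT2, hT3⟩
        have hgC : g ∈ normalizer (C : Set G) := by
          rw [mem_normalizer_iff]
          intro x
          rw [hC, mem_sInf, mem_sInf]
          constructor
          · intro h T' hT'
            exact (mem_normalizer_iff.1 hT'.2.2 x).1 (h T' hT')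
          · intro h T' hT'
            exact (mem_normalizer_iff.1 hT'.2.2 x).2 (h T' hT')
        have hCS : C ∈ S p ⊤ g := mem_S.2 ⟨le_top, hT1.to_le hCT, hgC⟩
        have h2 : (S p ⊤ g).filter (fun R => H ≤ R) = (S p ⊤ g).filter (fun R => C ≤ R) := by
          ext R
          rw [Finset.mem_filter, Finset.mem_filter]
          constructor
          · rintro ⟨h3, h4⟩
            have := mem_S.1 h3
            exact ⟨h3, sInf_le ⟨this.2.1, h4, this.2.2⟩⟩
          · rintro ⟨h3, h4⟩
            exact ⟨h3, hHC.trans h4⟩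
        rw [h2, sum_E _ hCS]; rfl
      · have h2 : (S p ⊤ g).filter (fun R => H ≤ R) = ∅ := by
          rw [Finset.filter_eq_empty_iff]
          intro R hR hHR
          have := mem_S.1 hR
          exact h ⟨R, this.2.1, hHR, this.2.2⟩
        rw [h2, Finset.sum_empty]; rfl
    rw [h1]
    have h2 : ∑ g : G, ∑ R ∈ (S p ⊤ g).filter (fun R => H ≤ R), E (S p ⊤ g) R =
        ∑ R ∈ Finset.univ.filter (fun R => H ≤ R ∧ IsPGroup p R), ∑ g ∈ Finset.univ.filter (fun g => g ∈ normalizer (R : Set G)), E (S p ⊤ g) R := by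
      apply Finset.sum_comm'
      intro g R'
      simp only [Finset.mem_filter, Finset.mem_univ, true_and, mem_S]
      have : R' ≤ ⊤ := le_top
      tauto
    rw [h2]
    have h3 : ∀ R ∈ Finset.univ.filter (fun R : Subgroup G => H ≤ R ∧ IsPGroup p R),
        ∑ g ∈ Finset.univ.filter (fun g => g ∈ normalizer (R : Set G)), E (S p ⊤ g) R =
        if IsMaxP p ⊤ R then (Nat.card (normalizer (R : Set G)) : ℤ) else 0 := by
      intro R hR
      simp only [Finset.mem_filter, Finset.mem_univ, true_and] at hR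
      split_ifs with hmx
      · rw [← card_filter, Finset.card_eq_sum_ones, Nat.cast_sum]
        apply Finset.sum_congr rfl
        intro g hg
        rw [E_max hmx.2.2]; rfl
      · have h7 : ∑ g ∈ Finset.univ.filter (fun g => g ∈ normalizer (R : Set G)), E (S p ⊤ g) R =
            ∑ g ∈ Finset.univ.filter (fun g => g ∈ normalizer (R : Set G)), E (S p (normalizer (R : Set G)) g) R := by
          apply Finset.sum_congr rfl
          intro g hg
          rw [Finset.mem_filter] at hg
          have h8 := E_interior (M := ⊤) le_top hR.2 (g := g) (by rw [top_inf_eq]; exact hg.2)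
          rw [top_inf_eq] at h8
          exact h8
        rw [h7]
        refine A_zero _ (normalizer (R : Set G)) R rfl le_normalizer le_rfl hR.2 ?_
        intro hmx2
        apply hmx
        refine ⟨le_top, hR.2, ?_⟩
        intro R'' h8 h9 h10
        have h11 : R'' ⊓ normalizer (R : Set G) ≤ R := by
          by_contra h12
          refine hmx2.2.2 (R'' ⊓ normalizer (R : Set G)) ?_ inf_le_right (h10.to_le inf_le_left)
          refine lt_of_le_of_ne (le_inf h8.le le_normalizer) ?_
          intro h13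
          exact h12 h13.symm.le
        exact h8.ne (norm_grow h10 h8.le h11).symm
    rw [Finset.sum_congr rfl h3, ← Finset.sum_filter]
    apply Finset.sum_congr _ (fun _ _ => rfl)
    ext R
    simp only [Finset.mem_filter, Finset.mem_univ, true_and]
    constructor
    · rintro ⟨⟨h4, h5⟩, h6⟩; exact ⟨h6, h4⟩
    · rintro ⟨h4, h5⟩; exact ⟨⟨h5, h4.2.1⟩, h4⟩
  rw [← Nat.cast_sum] at hz
  exact_mod_cast hz

end count

end CfsgLib.SubnorH12
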