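import Mathlib
import Cfsg.Agent.LibSuz11

/-! Suzuki groups: subfield embeddings and homomorphisms between Suzuki groups (seat helper15). -/

set_option autoImplicit false

namespace Cfsg.Agent.Suz13

open Cfsg.Agent.Suz
open CfsgLib.TIConj
open scoped Pointwise

variable {F : Type*} [Field F] [Fintype F] {O : Set (Projectivization F (Fin 4 → F))} {m : ℕ}
variable {K : Type*} [Field K] [Fintype K] {OK : Set (Projectivization K (Fin 4 → K))} {k : ℕ}

theorem comm_S (D : Data F O m) (E : Data K OK k) (hdiv : 2 * k + 1 ∣ 2 * m + 1) (ψ : K →+* F) (x : K) :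
    D.S (ψ x) = ψ (E.S x) := by
  rw [D.hSp, E.hSp, map_pow]
  obtain ⟨l, hl⟩ := hdiv
  obtain ⟨j, hj⟩ : ∃ j, l = 2 * j + 1 := by
    rcases Nat.even_or_odd' l with ⟨j, hj | hj⟩
    · exfalso
      rw [hj] at hl
      have : (2 * k + 1) * (2 * j) = 2 * ((2 * k + 1) * j) := by ring
      omega
    · exact ⟨j, hj⟩
  have hm : m + 1 = (2 * k + 1) * j + (k + 1) := by
    have h1 : 2 * m + 1 = 2 * ((2 * k + 1) * j) + (2 * k + 1) := by rw [hl, hj]; ring
    omega
  have hx : ∀ j : ℕ, ψ x ^ (2 ^ ((2 * k + 1) * j)) = ψ x := by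
    intro j
    induction j with
    | zero => simp
    | succ j ih =>
      rw [mul_add, mul_one, pow_add, pow_mul, ih, ← map_pow, ← E.hF, FiniteField.pow_card]
  rw [hm, pow_add, pow_mul, hx]

section
variable (D : Data F O m) (E : Data K OK k) (ψ : K →+* F) (hψ : ∀ x, D.S (ψ x) = ψ (E.S x))

include hψ in
theorem map_U (a b : K) : Matrix.SpecialLinearGroup.map ψ (U E.S a b) = U D.S (ψ a) (ψ b) := by
  apply Subtype.ext
  change ψ.mapMatrix (Um E.S a b) = Um D.S (ψ a) (ψ b)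
  ext i j
  fin_cases i <;> fin_cases j <;> simp [Um, zf, hψ]

include hψ in
theorem map_H (t : Kˣ) : Matrix.SpecialLinearGroup.map ψ (H E.S t) = H D.S (Units.map (ψ : K →* F) t) := by
  apply Subtype.ext
  change ψ.mapMatrix (Hm E.S t) = Hm D.S (ψ t)
  ext i j
  fin_cases i <;> fin_cases j <;> simp [Hm, hψ]

theorem map_W : Matrix.SpecialLinearGroup.map ψ (W K) = W F := by
  apply Subtype.ext
  change ψ.mapMatrix (Wm K) = Wm F
  ext i j
  fin_cases i <;> fin_cases j <;> simp [Wm]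

include hψ in
theorem map_mem' (g : Gp OK) : Matrix.SpecialLinearGroup.map ψ (g : Matrix.SpecialLinearGroup (Fin 4) K) ∈ Gp O := by
  have hU : ∀ a b, Matrix.SpecialLinearGroup.map ψ (E.u a b : Matrix.SpecialLinearGroup (Fin 4) K) ∈ Gp O := by
    intro a b
    change Matrix.SpecialLinearGroup.map ψ (U E.S a b) ∈ Gp O
    rw [map_U D E ψ hψ]
    exact D.U_mem _ _
  have hH : ∀ t, Matrix.SpecialLinearGroup.map ψ (E.h t : Matrix.SpecialLinearGroup (Fin 4) K) ∈ Gp O := by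
    intro t
    change Matrix.SpecialLinearGroup.map ψ (H E.S t) ∈ Gp O
    rw [map_H D E ψ hψ]
    exact D.H_mem _
  have hW : Matrix.SpecialLinearGroup.map ψ (E.w : Matrix.SpecialLinearGroup (Fin 4) K) ∈ Gp O := by
    change Matrix.SpecialLinearGroup.map ψ (W K) ∈ Gp O
    rw [map_W ψ]
    exact D.W_mem
  by_cases hi : g • inf K = inf K
  · obtain ⟨a, b, t, rfl⟩ := E.gborel g hi
    rw [Subgroup.coe_mul, map_mul]
    exact Subgroup.mul_mem _ (hU _ _) (hH _)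
  · obtain ⟨a, b, c, d, t, rfl⟩ := E.gbruhat g hi
    rw [Subgroup.coe_mul, Subgroup.coe_mul, Subgroup.coe_mul, map_mul, map_mul, map_mul]
    exact Subgroup.mul_mem _ (Subgroup.mul_mem _ (hU _ _) hW) (Subgroup.mul_mem _ (hU _ _) (hH _))

/-- the embedding -/
def Phi : Gp OK →* Gp O :=
  ((Matrix.SpecialLinearGroup.map ψ).comp (Gp OK).subtype).codRestrict (Gp O) (map_mem' D E ψ hψ)

theorem Phi_inj : Function.Injective (Phi D E ψ hψ) := by
  intro g h hgh
  apply Subtype.ext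
  have h1 : Matrix.SpecialLinearGroup.map ψ (g : Matrix.SpecialLinearGroup (Fin 4) K) = Matrix.SpecialLinearGroup.map ψ h :=
    congrArg Subtype.val hgh
  apply Subtype.ext
  ext i j
  have h2 : ψ ((g : Matrix.SpecialLinearGroup (Fin 4) K).1 i j) = ψ ((h : Matrix.SpecialLinearGroup (Fin 4) K).1 i j) := by
    have := congrArg (fun M : Matrix.SpecialLinearGroup (Fin 4) F => M.1 i j) h1
    exact this
  exact ψ.injective h2
end

theorem range_eq (ψ : K →+* F) : Set.range ψ = {x : F | x ^ Fintype.card K = x} := by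
  apply Set.eq_of_subset_of_ncard_le _ _ (Set.toFinite _)
  · rintro _ ⟨x, rfl⟩
    change ψ x ^ Fintype.card K = ψ x
    rw [← map_pow, FiniteField.pow_card]
  · have h1 : (Set.range ψ).ncard = Fintype.card K := by
      rw [← Set.image_univ, Set.ncard_image_of_injective _ ψ.injective, Set.ncard_univ, Nat.card_eq_fintype_card]
    rw [h1]
    classical
    have hne : (Polynomial.X ^ Fintype.card K - Polynomial.X : Polynomial F) ≠ 0 :=
      FiniteField.X_pow_card_sub_X_ne_zero F Fintype.one_lt_card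
    have h2 : {x : F | x ^ Fintype.card K = x} ⊆
        ((Polynomial.X ^ Fintype.card K - Polynomial.X : Polynomial F).roots.toFinset : Set F) := by
      intro x hx
      have hx' : x ^ Fintype.card K = x := hx
      rw [Finset.mem_coe, Multiset.mem_toFinset, Polynomial.mem_roots hne]
      simp [hx']
    calc _ ≤ ((Polynomial.X ^ Fintype.card K - Polynomial.X : Polynomial F).roots.toFinset : Set F).ncard :=
          Set.ncard_le_ncard h2 (Set.toFinite _)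
      _ = (Polynomial.X ^ Fintype.card K - Polynomial.X : Polynomial F).roots.toFinset.card := Set.ncard_coe_finset _
      _ ≤ (Polynomial.X ^ Fintype.card K - Polynomial.X : Polynomial F).roots.card := Multiset.toFinset_card_le _
      _ ≤ (Polynomial.X ^ Fintype.card K - Polynomial.X : Polynomial F).natDegree := Polynomial.card_roots' _
      _ = Fintype.card K := FiniteField.X_pow_card_sub_X_natDegree_eq F Fintype.one_lt_card

/-- final step -/
theorem final (D : Data F O m) (E : Data K OK k) (φ : Gp OK →* Gp O) (hφ : Function.Injective φ)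
    (hU : ∀ a b, ∃ c d, φ (E.u a b) = D.u c d) (hH : ∀ t, ∃ s, φ (E.h t) = D.h s) (hw : φ E.w = D.w) :
    ∃ ψ : K →+* F, ∀ b, φ (E.u 0 b) = D.u 0 (ψ b) := by
  have hZ : ∀ b, ∃ d, φ (E.u 0 b) = D.u 0 d := by
    intro b
    obtain ⟨c, d, h⟩ := hU 0 b
    have h1 : φ (E.u 0 b) ^ 2 = 1 := by
      rw [← map_pow, E.u_sq, map_zero, zero_mul, E.u_zero, map_one]
    rw [h, D.u_sq] at h1
    have h2 := (D.u_eq_one h1).2
    have hc : c = 0 := by
      rcases mul_eq_zero.mp h2 with h | h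
      · exact (map_eq_zero D.S).mp h
      · exact h
    exact ⟨d, by rw [h, hc]⟩
  choose f hf using hZ
  choose g hg using hH
  have fadd : ∀ b c, f (b + c) = f b + f c := by
    intro b c
    have h1 := hf (b + c)
    have h2 : E.u 0 (b + c) = E.u 0 b * E.u 0 c := by rw [E.u_mul]; simp
    rw [h2, map_mul, hf, hf, D.u_mul] at h1
    have h3 := (D.u_inj h1).2
    rw [map_zero, zero_mul, add_zero] at h3
    exact h3.symm
  have f0 : f 0 = 0 := by
    have h1 := hf 0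
    rw [E.u_zero, map_one] at h1
    exact (D.u_eq_one h1.symm).2
  have flam : ∀ (t : Kˣ) (b : K), f ((t : K) ^ 2 * E.S t * b) = ((g t : F) ^ 2 * D.S (g t)) * f b := by
    intro t b
    have h1 : E.h t * E.u 0 b * (E.h t)⁻¹ = E.u 0 ((t : K) ^ 2 * E.S t * b) := by rw [E.norm_h, mul_zero]
    have h2 := congrArg φ h1
    rw [map_mul, map_mul, map_inv, hg, hf, hf, D.norm_h, mul_zero] at h2
    exact (D.u_inj h2).2.symm
  have f1ne : f 1 ≠ 0 := by
    intro h
    have h1 := hf 1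
    rw [h, D.u_zero] at h1
    have h2 : E.u 0 1 = 1 := hφ (h1.trans (map_one φ).symm)
    exact one_ne_zero (E.u_eq_one h2).2
  have f1 : f 1 = 1 := by
    apply D.c_eq_one f1ne
    rw [← hf, ← hw, ← map_mul, ← map_pow, E.order5, map_one]
  have flam1 : ∀ t : Kˣ, f ((t : K) ^ 2 * E.S t) = (g t : F) ^ 2 * D.S (g t) := by
    intro t
    have := flam t 1
    rwa [mul_one, f1, mul_one] at this
  have fmul : ∀ x y, f (x * y) = f x * f y := by
    intro x y
    by_cases hx : x = 0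
    · rw [hx, zero_mul, f0, zero_mul]
    · obtain ⟨t, rfl⟩ := E.lam2_surj hx
      rw [flam, flam1]
  let ψ : K →+* F :=
    { toFun := f, map_one' := f1, map_mul' := fmul, map_zero' := f0, map_add' := fadd }
  exact ⟨ψ, hf⟩

/-- normalisation -/
theorem normalise (D : Data F O m) (E : Data K OK k) (φ : Gp OK →* Gp O) (hφ : Function.Injective φ) :
    ∃ (g : Gp O) (ψ : K →+* F), (∀ b, g * φ (E.u 0 b) * g⁻¹ = D.u 0 (ψ b)) ∧ g * φ E.w * g⁻¹ = D.w := by
  -- step 1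
  obtain ⟨g₁, hg₁⟩ : ∃ g : Gp O, ∀ a b, ∃ c d, g * φ (E.u a b) * g⁻¹ = D.u c d := by
    have h1 : IsPGroup 2 (E.Us.map φ) := E.isPGroup_Us.map _
    obtain ⟨P, hP⟩ := h1.exists_le_sylow
    obtain ⟨x, hx⟩ := D.sylow_conj P
    rw [hx] at hP
    refine ⟨x⁻¹, fun a b => ?_⟩
    have h2 := hP ⟨E.u a b, E.u_mem a b, rfl⟩
    rw [mem_conj] at h2
    obtain ⟨c, d, h3⟩ := h2
    exact ⟨c, d, by rw [← h3, inv_inv]⟩
  let φ₁ : Gp OK →* Gp O := (MulAut.conj g₁).toMonoidHom.comp φ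
  have hφ₁ : Function.Injective φ₁ := (MulAut.conj g₁).injective.comp hφ
  have hU₁ : ∀ a b, ∃ c d, φ₁ (E.u a b) = D.u c d := hg₁
  -- step 2: the Borel subgroup fixes `∞`
  have huu : ∃ c d, φ₁ (E.u 1 0) = D.u c d ∧ ¬ (c = 0 ∧ d = 0) := by
    obtain ⟨c, d, h⟩ := hU₁ 1 0
    refine ⟨c, d, h, ?_⟩
    rintro ⟨rfl, rfl⟩
    rw [D.u_zero] at h
    have h2 : E.u 1 0 = 1 := hφ₁ (h.trans (map_one φ₁).symm)
    exact one_ne_zero (E.u_eq_one h2).1
  have hfix : ∀ t, φ₁ (E.h t) • inf F = inf F := by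
    intro t
    have h1 : (E.h t)⁻¹ * E.u 1 0 * E.h t ∈ E.Us := (Subgroup.mem_normalizer_iff''.mp (E.h_norm t) _).mp (E.u_mem 1 0)
    obtain ⟨a, b, hab⟩ := h1
    obtain ⟨c, d, hcd, hne⟩ := huu
    have h2 : E.u 1 0 * E.h t = E.h t * E.u a b := by rw [← hab]; group
    have h3 : D.u c d * φ₁ (E.h t) = φ₁ (E.h t) * φ₁ (E.u a b) := by rw [← hcd, ← map_mul, h2, map_mul]
    obtain ⟨c', d', hcd'⟩ := hU₁ a b
    rw [hcd'] at h3
    have h4 : D.u c d • (φ₁ (E.h t) • inf F) = φ₁ (E.h t) • inf F := by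
      rw [← mul_smul, h3, mul_smul, D.u_inf]
    rcases (D.hO _).mp (D.smul_mem (φ₁ (E.h t)) D.inf_mem) with h | ⟨x, y, h⟩
    · exact h
    · exfalso
      rw [h] at h4
      exact hne (D.u_fix h4)
  obtain ⟨t₀, ht₀⟩ := E.exists_unit
  have hht : φ₁ (E.h t₀) ≠ 1 := by
    intro h
    apply ht₀
    apply E.h_inj
    rw [E.h_one]
    exact hφ₁ (h.trans (map_one φ₁).symm)
  obtain ⟨g₂, s₀, hs₀, hg₂i, hg₂⟩ : ∃ (g : Gp O) (s : Fˣ), s ≠ 1 ∧ g • inf F = inf F ∧ g * φ₁ (E.h t₀) * g⁻¹ = D.h s := by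
    rcases D.fix_cases hht D.inf_mem (hfix t₀) with ⟨x, a, b, hx, h⟩ | ⟨x, s, hs, hx, h⟩
    · exfalso
      -- 2-element
      have h1 : (φ₁ (E.h t₀)) ^ 4 = 1 := by
        have h2 : φ₁ (E.h t₀) = x⁻¹ * D.u a b * x := by rw [← h]; group
        have h3 : (x⁻¹ * D.u a b * x) ^ 4 = x⁻¹ * (D.u a b ^ 2) ^ 2 * x := by
          simp only [pow_succ, pow_zero, one_mul]; group
        rw [h2, h3, D.u_sq, D.u_sq, map_zero, zero_mul, D.u_zero]
        group
      rw [← map_pow] at h1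
      have h2 : E.h t₀ ^ 4 = 1 := hφ₁ (h1.trans (map_one φ₁).symm)
      have h3 : E.h (t₀ ^ 4) = E.h 1 := by
        have := map_pow E.hhom t₀ 4
        change E.h (t₀ ^ 4) = E.h t₀ ^ 4 at this
        rw [this, h2, E.h_one]
      have h4 := E.h_inj h3
      have h5 : t₀ ^ 4 = (t₀ ^ 2) ^ 2 := by rw [← pow_mul]
      rw [h5] at h4
      by_cases h6 : t₀ ^ 2 = 1
      · exact E.sq_ne_one ht₀ h6
      · exact E.sq_ne_one h6 h4
    · exact ⟨x, s, hs, hx, h⟩
  let φ₂ : Gp OK →* Gp O := (MulAut.conj g₂).toMonoidHom.comp φ₁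
  have hφ₂ : Function.Injective φ₂ := (MulAut.conj g₂).injective.comp hφ₁
  have hg₂n : g₂ ∈ Subgroup.normalizer (D.Us : Set (Gp O)) := by rw [D.normalizer_Us]; exact hg₂i
  have hU₂ : ∀ a b, ∃ c d, φ₂ (E.u a b) = D.u c d := by
    intro a b
    obtain ⟨c, d, h⟩ := hU₁ a b
    have h1 : φ₂ (E.u a b) = g₂ * D.u c d * g₂⁻¹ := by
      change g₂ * φ₁ (E.u a b) * g₂⁻¹ = _
      rw [h]
    have h2 := (Subgroup.mem_normalizer_iff.mp hg₂n _).mp (D.u_mem c d)
    rw [← h1] at h2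
    exact h2
  have ht₂ : φ₂ (E.h t₀) = D.h s₀ := hg₂
  have hH₂ : ∀ t, ∃ s, φ₂ (E.h t) = D.h s := by
    intro t
    apply D.cent_h hs₀
    rw [← ht₂, ← map_mul, ← map_mul, E.h_mul, E.h_mul, mul_comm]
  -- step 3
  obtain ⟨r, hr⟩ : ∃ r, φ₂ E.w = D.w * D.h r := by
    have h1 : φ₂ E.w * D.h s₀ = D.h s₀⁻¹ * φ₂ E.w := by
      rw [← D.h_inv, ← ht₂, ← map_inv, ← map_mul, ← map_mul, E.wh, E.h_inv]
    have key : ∀ p ∈ O, D.h s₀⁻¹ • p = p → p = inf F ∨ p = pt D.S 0 0 := by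
      intro p hp h
      rcases (D.hO p).mp hp with h1 | ⟨a, b, rfl⟩
      · exact Or.inl h1
      · right
        by_contra hne
        apply inv_ne_one.mpr hs₀
        apply D.h_fix _ h
        rintro ⟨rfl, rfl⟩
        exact hne rfl
    have h2 := key _ (D.smul_mem (φ₂ E.w) D.inf_mem) (by rw [← mul_smul, ← h1, mul_smul, D.h_inf])
    have h3 := key _ (D.smul_mem (φ₂ E.w) (D.pt_mem 0 0)) (by rw [← mul_smul, ← h1, mul_smul, D.h_zero])
    have h4 : φ₂ E.w • inf F = pt D.S 0 0 ∧ φ₂ E.w • pt D.S 0 0 = inf F := by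
      rcases h2 with h2 | h2 <;> rcases h3 with h3 | h3
      · exact absurd (MulAction.injective _ (h3.trans h2.symm)) (pt_ne_inf _ _ _)
      · exfalso
        obtain ⟨s, hs⟩ := D.gtorus _ h2 h3
        rw [hs, D.h_mul, D.h_mul, mul_comm] at h1
        have h5 := D.h_inj h1
        have h6 : s₀ = s₀⁻¹ := mul_right_cancel h5
        apply D.sq_ne_one hs₀
        rw [pow_two]
        nth_rewrite 2 [h6]
        exact mul_inv_cancel s₀
      · exact ⟨h2, h3⟩
      · exact absurd (MulAction.injective _ (h3.trans h2.symm)) (pt_ne_inf _ _ _)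
    obtain ⟨s, hs⟩ := D.gtorus (D.w * φ₂ E.w) (by rw [mul_smul, h4.1, D.w_zero]) (by rw [mul_smul, h4.2, D.w_inf])
    exact ⟨s, by rw [← hs, ← mul_assoc, D.w_w, one_mul]⟩
  obtain ⟨v, hv⟩ := D.exists_sqrt r
  let φ₃ : Gp OK →* Gp O := (MulAut.conj (D.h v)).toMonoidHom.comp φ₂
  have hφ₃ : Function.Injective φ₃ := (MulAut.conj (D.h v)).injective.comp hφ₂
  have hU₃ : ∀ a b, ∃ c d, φ₃ (E.u a b) = D.u c d := by
    intro a b
    obtain ⟨c, d, h⟩ := hU₂ a b
    refine ⟨D.S v * c, (v : F) ^ 2 * D.S v * d, ?_⟩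
    change D.h v * φ₂ (E.u a b) * (D.h v)⁻¹ = _
    rw [h, D.norm_h]
  have hH₃ : ∀ t, ∃ s, φ₃ (E.h t) = D.h s := by
    intro t
    obtain ⟨s, hs⟩ := hH₂ t
    refine ⟨s, ?_⟩
    change D.h v * φ₂ (E.h t) * (D.h v)⁻¹ = _
    rw [hs, D.h_inv, D.h_mul, D.h_mul]
    congr 1
    rw [mul_comm v s, mul_assoc, mul_inv_cancel, mul_one]
  have hw₃ : φ₃ E.w = D.w := by
    change D.h v * φ₂ E.w * (D.h v)⁻¹ = _
    have e : D.h v * D.w = D.w * D.h v⁻¹ := by rw [D.wh, inv_inv]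
    rw [hr, ← mul_assoc, e, D.h_inv, mul_assoc, mul_assoc, D.h_mul, D.h_mul, ← hv]
    have e2 : v⁻¹ * (v ^ 2 * v⁻¹) = 1 := by
      rw [pow_two]; group
    rw [e2, D.h_one, mul_one]
  obtain ⟨ψ, hψ⟩ := final D E φ₃ hφ₃ hU₃ hH₃ hw₃
  have e1 : ∀ x, φ₃ x = D.h v * (g₂ * g₁) * φ x * (D.h v * (g₂ * g₁))⁻¹ := by
    intro x
    change D.h v * (g₂ * (g₁ * φ x * g₁⁻¹) * g₂⁻¹) * (D.h v)⁻¹ = D.h v * (g₂ * g₁) * φ x * (D.h v * (g₂ * g₁))⁻¹
    group
  refine ⟨D.h v * (g₂ * g₁), ψ, fun b => ?_, ?_⟩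
  · rw [← e1]
    exact hψ b
  · rw [← e1]
    exact hw₃


theorem Phi_u (D : Data F O m) (E : Data K OK k) (ψ : K →+* F) (hψ : ∀ x, D.S (ψ x) = ψ (E.S x)) (a b : K) :
    Phi D E ψ hψ (E.u a b) = D.u (ψ a) (ψ b) := by
  apply Subtype.ext
  exact map_U D E ψ hψ a b

theorem Phi_h (D : Data F O m) (E : Data K OK k) (ψ : K →+* F) (hψ : ∀ x, D.S (ψ x) = ψ (E.S x)) (t : Kˣ) :
    Phi D E ψ hψ (E.h t) = D.h (Units.map (ψ : K →* F) t) := by
  apply Subtype.ext
  exact map_H D E ψ hψ t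

theorem Phi_w (D : Data F O m) (E : Data K OK k) (ψ : K →+* F) (hψ : ∀ x, D.S (ψ x) = ψ (E.S x)) :
    Phi D E ψ hψ E.w = D.w := by
  apply Subtype.ext
  exact map_W ψ

/-- two homomorphisms agreeing on the generators -/
theorem hom_ext {G : Type*} [Group G] (E : Data K OK k) {φ χ : Gp OK →* G} (hu : ∀ b, φ (E.u 0 b) = χ (E.u 0 b))
    (hw : φ E.w = χ E.w) : φ = χ := by
  apply MonoidHom.eq_of_eqOn_top
  rw [← E.gen_Zw]
  apply MonoidHom.eqOn_closure
  rintro x (⟨b, -, rfl⟩ | rfl)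
  · exact hu b
  · exact hw

end Cfsg.Agent.Suz13
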