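import Mathlib
import Cfsg.Agent.LibSuz12
import Cfsg.Agent.LibSuz10

/-! Suzuki groups: elements of odd order have no fixed vectors (seat helper15). -/

set_option autoImplicit false

namespace Cfsg.Agent.Suz

open MulAction
open scoped Pointwise
open CfsgLib.TIConj TICount

variable {F : Type*} [Field F] [Fintype F] {O : Set (Projectivization F (Fin 4 → F))} {m : ℕ}

theorem Data.no_fix_vec (D : Data F O m) {g : Gp O} {p : ℕ} (hp : p.Prime) (hp2 : p ≠ 2) (hg : orderOf g = p)
    (v : Fin 4 → F) (hv : g • v = v) : v = 0 := by
  have hg1 : g ≠ 1 := by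
    rintro rfl
    rw [orderOf_one] at hg
    exact hp.one_lt.ne hg
  rcases D.cent_prime hp hg with ⟨h, -⟩ | ⟨k, t, ht, -, -, h, -⟩ | ⟨k, a, b, h, -, -⟩
  · let W : Submodule F (Fin 4 → F) :=
      { carrier := {v | g • v = v}
        add_mem' := fun {a b} ha hb => by
          change g • (a + b) = a + b
          rw [smul_add, show g • a = a from ha, show g • b = b from hb]
        zero_mem' := smul_zero g
        smul_mem' := fun c v hv => by
          change g • c • v = c • v
          rw [smul_comm, show g • v = v from hv] }
    rcases D.irr hp hg h W (fun w hw => by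
      change g • g • w = g • w
      rw [show g • w = w from hw, show g • w = w from hw]) with h1 | h1
    · have h2 : v ∈ W := hv
      rw [h1] at h2
      exact (Submodule.mem_bot F).mp h2
    · exfalso
      apply hg1
      apply FaithfulSMul.eq_of_smul_eq_smul (α := Fin 4 → F)
      intro w
      have h2 : w ∈ W := by rw [h1]; exact Submodule.mem_top
      rw [one_smul]
      exact h2
  · have h1 : D.h t • (k • v) = k • v := by
      rw [← h, mul_smul, mul_smul, inv_smul_smul, hv]
    set u := k • v with hu
    have h2 : (Hm D.S t).mulVec u = u := h1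
    rw [mulVec4] at h2
    have e0 := congrFun h2 0
    have e1 := congrFun h2 1
    have e2 := congrFun h2 2
    have e3 := congrFun h2 3
    simp [Hm] at e0 e1 e2 e3
    have ht1 : (t : F) ≠ 1 := fun h => ht (Units.ext h)
    have hts : (t : F) * D.S t ≠ 1 := by
      intro h3
      apply ht1
      have h4 := congrArg D.S h3
      rw [map_mul, D.hS, map_one] at h4
      linear_combination h4 - (t : F) * h3
    have hti : (t : F)⁻¹ ≠ 1 := fun h => ht1 (by rw [← inv_inv (t : F), h, inv_one])
    have htsi : (D.S t)⁻¹ * (t : F)⁻¹ ≠ 1 := by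
      intro h3
      apply hts
      rw [← mul_inv_rev] at h3
      exact inv_eq_one.mp h3
    have aux : ∀ c x : F, c * x = x → c ≠ 1 → x = 0 := by
      intro c x h hc
      by_contra hx
      exact hc (mul_right_cancel₀ hx (by rw [h, one_mul]))
    have hu0 : u = 0 := by
      apply ext4
      · exact aux _ _ e0 hts
      · exact aux _ _ e1 ht1
      · exact aux _ _ e2 hti
      · exact aux _ _ e3 htsi
    have h3 : v = k⁻¹ • u := by rw [hu, inv_smul_smul]
    rw [h3, hu0, smul_zero]
  · exact absurd h hp2

end Cfsg.Agent.Suz
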