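import Mathlib

set_option autoImplicit false

/-! Solubilizers in `SL₂(q)`, `q` even, I: generalities (seat helper26). -/

namespace CfsgLib.Sv

open Matrix

section General

variable {G : Type*} [Group G]

theorem solv_of (K H : Subgroup G) (hH : ∀ a ∈ H, ∀ b ∈ H, a * b = b * a)
    (h : ∀ a ∈ K, ∀ b ∈ K, a * b * a⁻¹ * b⁻¹ ∈ H) : Group.IsSolvable K := by
  rw [isSolvable_def]
  refine ⟨2, ?_⟩
  have h1 : derivedSeries K 1 ≤ H.subgroupOf K := by
    rw [derivedSeries_succ, derivedSeries_zero, Subgroup.commutator_le]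
    intro a _ b _
    rw [Subgroup.mem_subgroupOf, commutatorElement_def]
    exact h a a.2 b b.2
  rw [derivedSeries_succ, eq_bot_iff, Subgroup.commutator_le]
  intro a ha b hb
  rw [Subgroup.mem_bot, commutatorElement_eq_one_iff_mul_comm]
  apply Subtype.ext
  exact hH a (h1 ha) b (h1 hb)

theorem ex_ab {K : Type*} [Group K] [Nontrivial K] (h : Group.IsSolvable K) :
    ∃ A : Subgroup K, A.Normal ∧ A ≠ ⊥ ∧ ∀ a ∈ A, ∀ b ∈ A, a * b = b * a := by
  classical
  rw [isSolvable_def] at h
  have h0 : Nat.find h ≠ 0 := by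
    intro h0
    have h1 := Nat.find_spec h
    rw [h0, derivedSeries_zero] at h1
    exact top_ne_bot h1
  obtain ⟨n, hn⟩ := Nat.exists_eq_succ_of_ne_zero h0
  refine ⟨derivedSeries K n, derivedSeries_normal K n, ?_, ?_⟩
  · exact Nat.find_min h (by omega)
  · have h1 := Nat.find_spec h
    rw [hn, Nat.succ_eq_add_one, derivedSeries_succ, eq_bot_iff, Subgroup.commutator_le] at h1
    intro a ha b hb
    have := h1 a ha b hb
    rwa [Subgroup.mem_bot, commutatorElement_eq_one_iff_mul_comm] at this

/-- The elements which centralise or invert `a`. -/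
def Dh (a : G) : Subgroup G where
  carrier := {g | g * a * g⁻¹ = a ∨ g * a * g⁻¹ = a⁻¹}
  mul_mem' := by
    intro g h hg hh
    have e : g * h * a * (g * h)⁻¹ = g * (h * a * h⁻¹) * g⁻¹ := by group
    have e2 : g * a⁻¹ * g⁻¹ = (g * a * g⁻¹)⁻¹ := by group
    simp only [Set.mem_setOf_eq] at *
    rw [e]
    rcases hh with hh | hh
    · rw [hh]; exact hg
    · rw [hh, e2]
      rcases hg with hg | hg
      · rw [hg]; exact Or.inr rfl
      · rw [hg, inv_inv]; exact Or.inl rfl
  one_mem' := by
    left; group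
  inv_mem' := by
    intro g hg
    simp only [Set.mem_setOf_eq] at *
    rcases hg with hg | hg
    · left
      have : a = g⁻¹ * (g * a * g⁻¹) * g := by group
      rw [hg] at this
      rw [inv_inv]
      exact this.symm
    · right
      have : a = g⁻¹ * (g * a * g⁻¹) * g := by group
      rw [hg] at this
      rw [inv_inv]
      calc g⁻¹ * a * g = (g⁻¹ * a⁻¹ * g)⁻¹ := by group
        _ = a⁻¹ := by rw [← this]

theorem mem_Dh {a g : G} : g ∈ Dh a ↔ (g * a * g⁻¹ = a ∨ g * a * g⁻¹ = a⁻¹) := Iff.rfl

theorem solv_Dh (a : G) (hc : ∀ g h : G, g * a = a * g → h * a = a * h → g * h = h * g) (K : Subgroup G) (hK : K ≤ Dh a) :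
    Group.IsSolvable K := by
  apply solv_of K (Subgroup.centralizer {a})
  · intro g hg h hh
    rw [Subgroup.mem_centralizer_singleton_iff] at hg hh
    exact hc g h hg hh
  · intro g hg h hh
    rw [Subgroup.mem_centralizer_singleton_iff]
    have h1 := hK hg
    have h2 := hK hh
    rw [mem_Dh] at h1 h2
    have e1 : g * h * g⁻¹ * h⁻¹ * a * (g * h * g⁻¹ * h⁻¹)⁻¹ = g * (h * (g⁻¹ * (h⁻¹ * a * h) * g) * h⁻¹) * g⁻¹ := by group
    have h3 := (Dh a).inv_mem (hK hg)
    have h4 := (Dh a).inv_mem (hK hh)
    rw [mem_Dh, inv_inv] at h3 h4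
    have inv1 : ∀ k : G, k * a⁻¹ * k⁻¹ = (k * a * k⁻¹)⁻¹ := by intro k; group
    have inv2 : ∀ k : G, k⁻¹ * a⁻¹ * k = (k⁻¹ * a * k)⁻¹ := by intro k; group
    have key : g * h * g⁻¹ * h⁻¹ * a * (g * h * g⁻¹ * h⁻¹)⁻¹ = a := by
      rw [e1]
      -- track the signs
      rcases h1 with h1 | h1 <;> rcases h2 with h2 | h2
      · have h3' : g⁻¹ * a * g = a := by
          have : a = g⁻¹ * (g * a * g⁻¹) * g := by group
          rw [h1] at this; exact this.symm
        have h4' : h⁻¹ * a * h = a := by
          have : a = h⁻¹ * (h * a * h⁻¹) * h := by group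
          rw [h2] at this; exact this.symm
        rw [h4', h3', h2, h1]
      · have h3' : g⁻¹ * a * g = a := by
          have : a = g⁻¹ * (g * a * g⁻¹) * g := by group
          rw [h1] at this; exact this.symm
        have h4' : h⁻¹ * a * h = a⁻¹ := by
          have : a = h⁻¹ * (h * a * h⁻¹) * h := by group
          rw [h2, inv2] at this
          exact inv_eq_iff_eq_inv.1 this.symm
        rw [h4', inv2, h3', inv1, h2, inv_inv, h1]
      · have h3' : g⁻¹ * a * g = a⁻¹ := by
          have : a = g⁻¹ * (g * a * g⁻¹) * g := by group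
          rw [h1, inv2] at this
          exact inv_eq_iff_eq_inv.1 this.symm
        have h4' : h⁻¹ * a * h = a := by
          have : a = h⁻¹ * (h * a * h⁻¹) * h := by group
          rw [h2] at this; exact this.symm
        rw [h4', h3', inv1, h2, inv1, h1, inv_inv]
      · have h3' : g⁻¹ * a * g = a⁻¹ := by
          have : a = g⁻¹ * (g * a * g⁻¹) * g := by group
          rw [h1, inv2] at this
          exact inv_eq_iff_eq_inv.1 this.symm
        have h4' : h⁻¹ * a * h = a⁻¹ := by
          have : a = h⁻¹ * (h * a * h⁻¹) * h := by group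
          rw [h2, inv2] at this
          exact inv_eq_iff_eq_inv.1 this.symm
        rw [h4', inv2, h3', inv_inv, h2, inv1, h1, inv_inv]
    rw [mul_inv_eq_iff_eq_mul] at key
    exact key

theorem solv_cl (a x y : G) (hc : ∀ g h : G, g * a = a * g → h * a = a * h → g * h = h * g)
    (hx : x * a * x⁻¹ = a ∨ x * a * x⁻¹ = a⁻¹) (hy : y * a * y⁻¹ = a ∨ y * a * y⁻¹ = a⁻¹) :
    Group.IsSolvable (Subgroup.closure ({x, y} : Set G)) := by
  apply solv_Dh a hc
  rw [Subgroup.closure_le]
  intro z hz
  rcases hz with rfl | hz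
  · exact hx
  · rw [Set.mem_singleton_iff] at hz
    rw [hz]; exact hy

theorem solv_equiv {H : Type*} [Group H] (e : G ≃* H) (x y : G) :
    Group.IsSolvable (Subgroup.closure ({e x, e y} : Set H)) ↔ Group.IsSolvable (Subgroup.closure ({x, y} : Set G)) := by
  have h1 : Subgroup.closure ({e x, e y} : Set H) = (Subgroup.closure ({x, y} : Set G)).map (e : G →* H) := by
    rw [MonoidHom.map_closure]
    congr 1
    simp [Set.image_pair]
  rw [h1]
  constructor
  · intro h
    exact Group.isSolvable_of_isSolvable_injective (f := ((e.subgroupMap (Subgroup.closure ({x, y} : Set G))).toMonoidHom))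
      (MulEquiv.injective _)
  · intro h
    exact Group.isSolvable_of_surjective (f := ((e.subgroupMap (Subgroup.closure ({x, y} : Set G))).toMonoidHom))
      (MulEquiv.surjective _)

theorem card_equiv {H : Type*} [Group H] (e : G ≃* H) (x : G) :
    Nat.card {y : H // Group.IsSolvable (Subgroup.closure ({e x, y} : Set H))} =
      Nat.card {y : G // Group.IsSolvable (Subgroup.closure ({x, y} : Set G))} := by
  symm
  apply Nat.card_congr
  refine e.toEquiv.subtypeEquiv ?_
  intro y
  exact (solv_equiv e x y).symm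

theorem card_conj (g x : G) :
    Nat.card {y : G // Group.IsSolvable (Subgroup.closure ({g * x * g⁻¹, y} : Set G))} =
      Nat.card {y : G // Group.IsSolvable (Subgroup.closure ({x, y} : Set G))} :=
  card_equiv (MulAut.conj g) x

end General

end CfsgLib.Sv
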