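import Cfsg.Agent.LibSv1

set_option autoImplicit false

/-! Solubilizers in `SL₂(q)`, `q` even, II: coordinates (seat helper26). -/

namespace CfsgLib.Sv

open Matrix

variable {F : Type*} [Field F]

local notation "S" => SpecialLinearGroup (Fin 2) F

theorem ext2 {g h : SpecialLinearGroup (Fin 2) F} (h00 : g 0 0 = h 0 0) (h01 : g 0 1 = h 0 1) (h10 : g 1 0 = h 1 0) (h11 : g 1 1 = h 1 1) : g = h := by
  apply Subtype.ext
  ext i j
  fin_cases i <;> fin_cases j
  · exact h00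
  · exact h01
  · exact h10
  · exact h11

theorem mulE (g h : SpecialLinearGroup (Fin 2) F) (i j : Fin 2) : (g * h) i j = g i 0 * h 0 j + g i 1 * h 1 j := by
  change ((g : Matrix (Fin 2) (Fin 2) F) * (h : Matrix (Fin 2) (Fin 2) F)) i j = _
  rw [Matrix.mul_apply, Fin.sum_univ_two]

theorem det2 (g : SpecialLinearGroup (Fin 2) F) : g 0 0 * g 1 1 - g 0 1 * g 1 0 = 1 := by
  have := g.det_coe
  rw [Matrix.det_fin_two] at this
  exact this

theorem inv00 (g : SpecialLinearGroup (Fin 2) F) : g⁻¹ 0 0 = g 1 1 := by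
  rw [Matrix.SpecialLinearGroup.SL2_inv_expl]; rfl
theorem inv01 (g : SpecialLinearGroup (Fin 2) F) : g⁻¹ 0 1 = - g 0 1 := by
  rw [Matrix.SpecialLinearGroup.SL2_inv_expl]; rfl
theorem inv10 (g : SpecialLinearGroup (Fin 2) F) : g⁻¹ 1 0 = - g 1 0 := by
  rw [Matrix.SpecialLinearGroup.SL2_inv_expl]; rfl
theorem inv11 (g : SpecialLinearGroup (Fin 2) F) : g⁻¹ 1 1 = g 0 0 := by
  rw [Matrix.SpecialLinearGroup.SL2_inv_expl]; rfl

theorem oneE00 : (1 : SpecialLinearGroup (Fin 2) F) 0 0 = 1 := rfl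
theorem oneE01 : (1 : SpecialLinearGroup (Fin 2) F) 0 1 = 0 := rfl
theorem oneE10 : (1 : SpecialLinearGroup (Fin 2) F) 1 0 = 0 := rfl
theorem oneE11 : (1 : SpecialLinearGroup (Fin 2) F) 1 1 = 1 := rfl

/-- The matrix with given entries. -/
def mk (a b c d : F) (h : a * d - b * c = 1) : SpecialLinearGroup (Fin 2) F := ⟨!![a, b; c, d], by rw [Matrix.det_fin_two]; exact h⟩

theorem mk00 (a b c d : F) (h : a * d - b * c = 1) : (mk a b c d h) 0 0 = a := rfl
theorem mk01 (a b c d : F) (h : a * d - b * c = 1) : (mk a b c d h) 0 1 = b := rfl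
theorem mk10 (a b c d : F) (h : a * d - b * c = 1) : (mk a b c d h) 1 0 = c := rfl
theorem mk11 (a b c d : F) (h : a * d - b * c = 1) : (mk a b c d h) 1 1 = d := rfl

/-- commuting elements are "parallel" -/
theorem comm_iff (g h : SpecialLinearGroup (Fin 2) F) : g * h = h * g ↔
    (g 0 1 * h 1 0 = h 0 1 * g 1 0 ∧ g 0 1 * (h 0 0 - h 1 1) = h 0 1 * (g 0 0 - g 1 1) ∧
      g 1 0 * (h 0 0 - h 1 1) = h 1 0 * (g 0 0 - g 1 1)) := by
  constructor
  · intro e
    have e00 := congrArg (fun z : SpecialLinearGroup (Fin 2) F => z 0 0) e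
    have e01 := congrArg (fun z : SpecialLinearGroup (Fin 2) F => z 0 1) e
    have e10 := congrArg (fun z : SpecialLinearGroup (Fin 2) F => z 1 0) e
    simp only [mulE] at e00 e01 e10
    exact ⟨by linear_combination e00, by linear_combination -e01, by linear_combination e10⟩
  · rintro ⟨e1, e2, e3⟩
    apply ext2 <;> simp only [mulE]
    · linear_combination e1
    · linear_combination -e2
    · linear_combination e3
    · linear_combination -e1

theorem par {x1 x2 x3 a1 a2 a3 b1 b2 b3 : F} (hx : ¬ (x1 = 0 ∧ x2 = 0 ∧ x3 = 0))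
    (ha1 : a1 * x2 = x1 * a2) (ha2 : a1 * x3 = x1 * a3) (ha3 : a2 * x3 = x2 * a3)
    (hb1 : b1 * x2 = x1 * b2) (hb2 : b1 * x3 = x1 * b3) (hb3 : b2 * x3 = x2 * b3) :
    a1 * b2 = b1 * a2 ∧ a1 * b3 = b1 * a3 ∧ a2 * b3 = b2 * a3 := by
  by_cases h1 : x1 = 0
  · by_cases h2 : x2 = 0
    · have h3 : x3 ≠ 0 := fun h3 => hx ⟨h1, h2, h3⟩
      subst h1 h2
      have a10 : a1 = 0 := (mul_eq_zero.1 (by linear_combination ha2 : a1 * x3 = 0)).resolve_right h3
      have a20 : a2 = 0 := (mul_eq_zero.1 (by linear_combination ha3 : a2 * x3 = 0)).resolve_right h3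
      have b10 : b1 = 0 := (mul_eq_zero.1 (by linear_combination hb2 : b1 * x3 = 0)).resolve_right h3
      have b20 : b2 = 0 := (mul_eq_zero.1 (by linear_combination hb3 : b2 * x3 = 0)).resolve_right h3
      subst a10 a20 b10 b20
      simp
    · refine ⟨?_, ?_, ?_⟩ <;> apply mul_left_cancel₀ h2
      · linear_combination b2 * ha1 - a2 * hb1
      · subst h1
        have a10 : a1 = 0 := (mul_eq_zero.1 (by linear_combination ha1 : a1 * x2 = 0)).resolve_right h2
        have b10 : b1 = 0 := (mul_eq_zero.1 (by linear_combination hb1 : b1 * x2 = 0)).resolve_right h2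
        subst a10 b10
        ring
      · linear_combination b2 * ha3 - a2 * hb3
  · refine ⟨?_, ?_, ?_⟩ <;> apply mul_left_cancel₀ h1
    · linear_combination b1 * ha1 - a1 * hb1
    · linear_combination b1 * ha2 - a1 * hb2
    · have e2 := mul_left_cancel₀ h1 (by linear_combination b1 * ha1 - a1 * hb1 : x1 * (a1 * b2) = x1 * (b1 * a2))
      apply mul_left_cancel₀ h1
      linear_combination x1 * b3 * (-ha1) + x1 * a3 * hb1 + x2 * (b1 * ha2 - a1 * hb2)

theorem cent_comm (x : SpecialLinearGroup (Fin 2) F) (hx : ¬ (x 0 1 = 0 ∧ x 1 0 = 0 ∧ x 0 0 - x 1 1 = 0)) :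
    ∀ g h : SpecialLinearGroup (Fin 2) F, g * x = x * g → h * x = x * h → g * h = h * g := by
  intro g h hg hh
  rw [comm_iff] at hg hh ⊢
  obtain ⟨p1, p2, p3⟩ := par hx hg.1 hg.2.1 hg.2.2 hh.1 hh.2.1 hh.2.2
  exact ⟨p1, p2, p3⟩

theorem tr_conj2 (h x : SpecialLinearGroup (Fin 2) F) : (h * x * h⁻¹) 0 0 + (h * x * h⁻¹) 1 1 = x 0 0 + x 1 1 := by
  simp only [mulE, inv00, inv01, inv10, inv11]
  linear_combination (x 0 0 + x 1 1) * det2 h

theorem conj10 (h x : SpecialLinearGroup (Fin 2) F) : (h * x * h⁻¹) 1 0 =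
    (h 1 0 * x 0 0 + h 1 1 * x 1 0) * h 1 1 - (h 1 0 * x 0 1 + h 1 1 * x 1 1) * h 1 0 := by
  simp only [mulE, inv00, inv01, inv10, inv11]
  ring

theorem tri (x : SpecialLinearGroup (Fin 2) F) (c : F) (hc : c * c + 1 = c * (x 0 0 + x 1 1)) :
    ∃ h : SpecialLinearGroup (Fin 2) F, (h * x * h⁻¹) 1 0 = 0 := by
  by_cases h0 : x 1 0 = 0
  · exact ⟨1, by rw [one_mul, inv_one, mul_one]; exact h0⟩
  · refine ⟨mk 0 (-(x 1 0)⁻¹) (x 1 0) (x 1 1 - c) (by field_simp; ring), ?_⟩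
    rw [conj10, mk10, mk11]
    linear_combination x 1 0 * hc + x 1 0 * det2 x

theorem unip (h2 : (2 : F) = 0) (u : SpecialLinearGroup (Fin 2) F) (h10 : u 1 0 = 0) (ht : u 0 0 + u 1 1 = 0) :
    u 0 0 = 1 ∧ u 1 1 = 1 := by
  have e2 := det2 u
  rw [h10, mul_zero, sub_zero] at e2
  have e3 : (u 0 0 - 1) * (u 0 0 - 1) = 0 := by
    linear_combination u 0 0 * ht - e2 - u 0 0 * h2
  have h0 : u 0 0 = 1 := by linear_combination mul_self_eq_zero.1 e3
  refine ⟨h0, ?_⟩
  rw [h0] at ht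
  linear_combination ht - h2

theorem cb (u k : SpecialLinearGroup (Fin 2) F) (h10 : u 1 0 = 0) (h00 : u 0 0 = 1) (h11 : u 1 1 = 1) (h01 : u 0 1 ≠ 0)
    (hcom : (k * u * k⁻¹) * u = u * (k * u * k⁻¹)) : k 1 0 = 0 := by
  rw [comm_iff] at hcom
  obtain ⟨c1, -, -⟩ := hcom
  rw [h10, mul_zero, conj10, h00, h11, h10] at c1
  have c2 : u 0 1 * (u 0 1 * (k 1 0 * k 1 0)) = 0 := by linear_combination c1
  exact mul_self_eq_zero.1 ((mul_eq_zero.1 ((mul_eq_zero.1 c2).resolve_left h01)).resolve_left h01)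

/-- the two conjugates of `a` inside its centraliser -/
theorem twoconj (h2 : (2 : F) = 0) (a b : SpecialLinearGroup (Fin 2) F) (ha : a 0 0 + a 1 1 ≠ 0)
    (ht : b 0 0 + b 1 1 = a 0 0 + a 1 1) (hab : b * a = a * b) : b = a ∨ b = a⁻¹ := by
  rw [comm_iff] at hab
  obtain ⟨-, c2, c3⟩ := hab
  have d1 : b 0 1 = a 0 1 := by
    apply mul_right_cancel₀ ha
    linear_combination c2 + a 0 1 * ht + (b 0 1 * a 1 1 - a 0 1 * b 1 1) * h2
  have d2 : b 1 0 = a 1 0 := by
    apply mul_right_cancel₀ ha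
    linear_combination c3 + a 1 0 * ht + (b 1 0 * a 1 1 - a 1 0 * b 1 1) * h2
  have d3 : (b 0 0 - a 0 0) * (b 0 0 - a 1 1) = 0 := by
    have e1 := det2 a
    have e2 := det2 b
    rw [d1, d2] at e2
    linear_combination e1 - e2 + b 0 0 * ht
  rcases mul_eq_zero.1 d3 with d | d
  · left
    have d' : b 0 0 = a 0 0 := by linear_combination d
    exact ext2 d' d1 d2 (by linear_combination ht - d')
  · right
    have d' : b 0 0 = a 1 1 := by linear_combination d
    apply ext2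
    · rw [inv00, d']
    · rw [inv01, d1]; linear_combination a 0 1 * h2
    · rw [inv10, d2]; linear_combination a 1 0 * h2
    · rw [inv11]; linear_combination ht - d'

/-- in characteristic two: the last non-trivial derived subgroup -/
theorem struct (h2 : (2 : F) = 0) (K : Subgroup (SpecialLinearGroup (Fin 2) F)) (hK : K ≠ ⊥) (hs : Group.IsSolvable K) :
    (∃ h : SpecialLinearGroup (Fin 2) F, ∀ g ∈ K, (h * g * h⁻¹) 1 0 = 0) ∨
    (∃ a : SpecialLinearGroup (Fin 2) F, a 0 0 + a 1 1 ≠ 0 ∧ ∀ g ∈ K, g * a = a * g ∨ g * a = a⁻¹ * g) := by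
  haveI : Nontrivial K := (Subgroup.nontrivial_iff_ne_bot K).2 hK
  obtain ⟨A, hA, hA1, hAc⟩ := ex_ab hs
  have hcom : ∀ g ∈ K, ∀ t ∈ A, (g * (t : SpecialLinearGroup (Fin 2) F) * g⁻¹) * t = t * (g * (t : SpecialLinearGroup (Fin 2) F) * g⁻¹) := by
    intro g hg t htA
    have h1 := hAc _ (hA.conj_mem t htA ⟨g, hg⟩) t htA
    have h2 := congrArg (fun z : K => (z : SpecialLinearGroup (Fin 2) F)) h1
    simp only [Subgroup.coe_mul, Subgroup.coe_inv] at h2
    exact h2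
  by_cases ht : ∃ t ∈ A, (t : SpecialLinearGroup (Fin 2) F) ≠ 1 ∧ (t : SpecialLinearGroup (Fin 2) F) 0 0 + (t : SpecialLinearGroup (Fin 2) F) 1 1 = 0
  · left
    obtain ⟨t, htA, ht1, ht0⟩ := ht
    obtain ⟨h, hh⟩ := tri (t : SpecialLinearGroup (Fin 2) F) 1 (by rw [ht0]; linear_combination h2)
    refine ⟨h, ?_⟩
    intro g hg
    have hc := hcom g hg t htA
    generalize (t : SpecialLinearGroup (Fin 2) F) = s at *
    obtain ⟨u, hu⟩ : ∃ u, u = h * s * h⁻¹ := ⟨_, rfl⟩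
    have hs' : s = h⁻¹ * u * h := by rw [hu]; group
    rw [← hu] at hh
    obtain ⟨hu1, hu3⟩ := unip h2 u hh (by rw [hu, tr_conj2, ht0])
    have hu01 : u 0 1 ≠ 0 := by
      intro h01
      apply ht1
      rw [hs', (ext2 hu1 h01 hh hu3 : u = 1)]
      group
    apply cb u _ hh hu1 hu3 hu01
    calc (h * g * h⁻¹ * u * (h * g * h⁻¹)⁻¹) * u = h * ((g * s * g⁻¹) * s) * h⁻¹ := by
          rw [hu]; group
      _ = _ := by rw [hc, hu]; group
  · right
    push Not at ht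
    obtain ⟨⟨a, haA⟩, ha1⟩ := Subgroup.ne_bot_iff_exists_ne_one.1 hA1
    have ha2 : (a : SpecialLinearGroup (Fin 2) F) ≠ 1 := by
      intro h
      apply ha1
      apply Subtype.ext
      exact Subtype.ext h
    refine ⟨a, ht a haA ha2, ?_⟩
    intro g hg
    rcases twoconj h2 _ _ (ht a haA ha2) (tr_conj2 g _) (hcom g hg a haA) with h | h
    · left
      rwa [mul_inv_eq_iff_eq_mul] at h
    · right
      rwa [mul_inv_eq_iff_eq_mul] at h

/-- inverting elements have trace zero -/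
theorem inv_tr (h2 : (2 : F) = 0) (a g : SpecialLinearGroup (Fin 2) F) (ha : a 0 0 + a 1 1 ≠ 0) (h : g * a = a⁻¹ * g) :
    g 0 0 + g 1 1 = 0 := by
  have e00 := congrArg (fun z : SpecialLinearGroup (Fin 2) F => z 0 0) h
  have e11 := congrArg (fun z : SpecialLinearGroup (Fin 2) F => z 1 1) h
  simp only [mulE, inv00, inv01, inv10, inv11] at e00 e11
  apply (mul_eq_zero.1 (?_ : (g 0 0 + g 1 1) * (a 0 0 + a 1 1) = 0)).resolve_right ha
  linear_combination e00 + e11 + (a 1 1 * g 0 0 + a 0 0 * g 1 1 - a 0 1 * g 1 0 - g 0 1 * a 1 0) * h2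

end CfsgLib.Sv
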