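import Cfsg.Agent.LibSv2

set_option autoImplicit false

/-! Solubilizers in `SL₂(q)`, `q` even, III: criteria (seat helper26). -/

namespace CfsgLib.Sv

open Matrix

variable {F : Type*} [Field F]

/-- upper triangular matrices -/
def Bo (F : Type*) [Field F] : Subgroup (SpecialLinearGroup (Fin 2) F) where
  carrier := {g | g 1 0 = 0}
  mul_mem' := by
    intro a b ha hb
    change (a * b) 1 0 = 0
    change a 1 0 = 0 at ha
    change b 1 0 = 0 at hb
    rw [mulE, ha, hb]; ring
  one_mem' := rfl
  inv_mem' := by
    intro a ha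
    change a⁻¹ 1 0 = 0
    change a 1 0 = 0 at ha
    rw [inv10, ha, neg_zero]

/-- unitriangular matrices -/
def Ut2 (F : Type*) [Field F] : Subgroup (SpecialLinearGroup (Fin 2) F) where
  carrier := {g | g 1 0 = 0 ∧ g 0 0 = 1 ∧ g 1 1 = 1}
  mul_mem' := by
    rintro a b ⟨ha, ha', ha''⟩ ⟨hb, hb', hb''⟩
    refine ⟨?_, ?_, ?_⟩
    · rw [mulE, ha, hb]; ring
    · rw [mulE, ha', hb, hb']; ring
    · rw [mulE, ha, ha'', hb'']; ring
  one_mem' := ⟨rfl, rfl, rfl⟩
  inv_mem' := by
    rintro a ⟨ha, ha', ha''⟩
    exact ⟨by rw [inv10, ha, neg_zero], by rw [inv00, ha''], by rw [inv11, ha']⟩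

theorem borel (K : Subgroup (SpecialLinearGroup (Fin 2) F)) (hK : K ≤ Bo F) : Group.IsSolvable K := by
  apply solv_of K (Ut2 F)
  · rintro a ⟨ha, ha', ha''⟩ b ⟨hb, hb', hb''⟩
    apply ext2 <;> simp only [mulE, ha, hb, ha', hb', ha'', hb''] <;> ring
  · intro a ha b hb
    have ha' : a 1 0 = 0 := hK ha
    have hb' : b 1 0 = 0 := hK hb
    have da := det2 a
    have db := det2 b
    rw [ha', mul_zero, sub_zero] at da
    rw [hb', mul_zero, sub_zero] at db
    refine ⟨?_, ?_, ?_⟩ <;> simp only [mulE, inv00, inv10, inv01, inv11, ha', hb']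
    · ring
    · linear_combination b 0 0 * b 1 1 * da + db
    · linear_combination b 0 0 * b 1 1 * da + db

theorem borel_cl (x y : SpecialLinearGroup (Fin 2) F) (hx : x 1 0 = 0) (hy : y 1 0 = 0) :
    Group.IsSolvable (Subgroup.closure ({x, y} : Set (SpecialLinearGroup (Fin 2) F))) := by
  apply borel
  rw [Subgroup.closure_le]
  intro z hz
  rcases hz with rfl | hz
  · exact hx
  · rw [Set.mem_singleton_iff] at hz
    rw [hz]; exact hy

theorem borel_cl' (x y : SpecialLinearGroup (Fin 2) F) (hx : x 0 1 = 0) (hy : y 0 1 = 0) :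
    Group.IsSolvable (Subgroup.closure ({x, y} : Set (SpecialLinearGroup (Fin 2) F))) := by
  rw [← solv_equiv (MulAut.conj (mk 0 1 (-1) 0 (by ring) : SpecialLinearGroup (Fin 2) F)) x y]
  apply borel_cl
  · rw [MulAut.conj_apply, conj10, mk10, mk11, hx]; ring
  · rw [MulAut.conj_apply, conj10, mk10, mk11, hy]; ring

theorem sq1 (h2 : (2 : F) = 0) (g : SpecialLinearGroup (Fin 2) F) (ht : g 0 0 + g 1 1 = 0) : g * g = 1 := by
  have hd := det2 g
  apply ext2 <;> simp only [mulE, oneE00, oneE01, oneE10, oneE11]
  · linear_combination g 0 0 * ht - hd - h2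
  · linear_combination g 0 1 * ht
  · linear_combination g 1 0 * ht
  · linear_combination g 1 1 * ht - hd - h2

theorem crit1 (h2 : (2 : F) = 0) (x : SpecialLinearGroup (Fin 2) F) (h10 : x 1 0 = 0) (h00 : x 0 0 = 1) (h11 : x 1 1 = 1)
    (h01 : x 0 1 ≠ 0) (y : SpecialLinearGroup (Fin 2) F) :
    Group.IsSolvable (Subgroup.closure ({x, y} : Set (SpecialLinearGroup (Fin 2) F))) ↔
      (y 1 0 = 0 ∨ y 0 0 + y 1 1 = 0 ∨ y 0 0 + y 1 1 + x 0 1 * y 1 0 = 0) := by
  have hxm : x ∈ Subgroup.closure ({x, y} : Set (SpecialLinearGroup (Fin 2) F)) := Subgroup.subset_closure (by simp)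
  have hym : y ∈ Subgroup.closure ({x, y} : Set (SpecialLinearGroup (Fin 2) F)) := Subgroup.subset_closure (by simp)
  constructor
  · intro hs
    have hne : Subgroup.closure ({x, y} : Set (SpecialLinearGroup (Fin 2) F)) ≠ ⊥ := by
      intro h
      rw [h, Subgroup.mem_bot] at hxm
      apply h01
      rw [hxm]; rfl
    rcases struct h2 _ hne hs with ⟨h, hh⟩ | ⟨a, ha, hh⟩
    · have e1 := hh x hxm
      have e2 := hh y hym
      have hd := det2 h
      rw [conj10, h10, h00, h11] at e1
      have e3 : x 0 1 * (h 1 0 * h 1 0) = 0 := by linear_combination -e1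
      have e4 : h 1 0 = 0 := mul_self_eq_zero.1 ((mul_eq_zero.1 e3).resolve_left h01)
      rw [conj10, e4] at e2
      rw [e4, mul_zero, sub_zero] at hd
      have h1 : h 1 1 ≠ 0 := right_ne_zero_of_mul (a := h 0 0) (by rw [hd]; exact one_ne_zero)
      left
      apply (mul_eq_zero.1 (?_ : (h 1 1 * h 1 1) * y 1 0 = 0)).resolve_left (mul_ne_zero h1 h1)
      linear_combination e2
    · right
      have hx1 : x * a = a⁻¹ * x := by
        refine (hh x hxm).resolve_left ?_
        intro hc
        rw [comm_iff] at hc
        obtain ⟨-, c2, -⟩ := hc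
        rw [h00, h11, sub_self, mul_zero] at c2
        have := (mul_eq_zero.1 c2).resolve_left h01
        apply ha
        linear_combination this + a 1 1 * h2
      rcases hh y hym with hy | hy
      · right
        have e : (x * y) * a = a⁻¹ * (x * y) := by
          rw [mul_assoc, hy, ← mul_assoc, hx1, mul_assoc]
        have := inv_tr h2 a _ ha e
        simp only [mulE, h00, h11, h10] at this
        linear_combination this
      · left
        exact inv_tr h2 a y ha hy
  · intro hcase
    by_cases hy0 : y 1 0 = 0
    · exact borel_cl x y h10 hy0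
    · have hxx : x * x = 1 := sq1 h2 x (by rw [h00, h11]; linear_combination h2)
      have hxi : x⁻¹ = x := inv_eq_of_mul_eq_one_right hxx
      rcases hcase with h | h | h
      · exact absurd h hy0
      · have hyi : y⁻¹ = y := inv_eq_of_mul_eq_one_right (sq1 h2 y h)
        apply solv_cl (x * y)
        · apply cent_comm
          rintro ⟨-, h', -⟩
          rw [mulE, h10, h11] at h'
          apply hy0
          linear_combination h'
        · right
          rw [_root_.mul_inv_rev, hyi, hxi, ← mul_assoc, hxx, one_mul]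
        · right
          rw [_root_.mul_inv_rev, hyi, hxi]
          calc y * (x * y) * y = y * x * (y * y) := by group
            _ = y * x := by rw [sq1 h2 y h, mul_one]
      · have hxy : (x * y) * (x * y) = 1 := by
          apply sq1 h2
          simp only [mulE, h00, h11, h10]
          linear_combination h
        apply solv_cl y
        · apply cent_comm
          rintro ⟨-, h', -⟩
          exact hy0 h'
        · right
          rw [hxi]
          apply eq_inv_of_mul_eq_one_left
          rw [← hxy]; group
        · left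
          group

theorem crit2 (h2 : (2 : F) = 0) (x : SpecialLinearGroup (Fin 2) F) (h10 : x 1 0 = 0) (h01 : x 0 1 = 0) (hne : x 0 0 - x 1 1 ≠ 0)
    (y : SpecialLinearGroup (Fin 2) F) :
    Group.IsSolvable (Subgroup.closure ({x, y} : Set (SpecialLinearGroup (Fin 2) F))) ↔
      (y 1 0 = 0 ∨ y 0 1 = 0 ∨ (y 0 0 = 0 ∧ y 1 1 = 0)) := by
  have hxm : x ∈ Subgroup.closure ({x, y} : Set (SpecialLinearGroup (Fin 2) F)) := Subgroup.subset_closure (by simp)
  have hym : y ∈ Subgroup.closure ({x, y} : Set (SpecialLinearGroup (Fin 2) F)) := Subgroup.subset_closure (by simp)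
  constructor
  · intro hs
    have hne : Subgroup.closure ({x, y} : Set (SpecialLinearGroup (Fin 2) F)) ≠ ⊥ := by
      intro h
      rw [h, Subgroup.mem_bot] at hxm
      apply hne
      rw [hxm, oneE00, oneE11, sub_self]
    rcases struct h2 _ hne hs with ⟨h, hh⟩ | ⟨a, ha, hh⟩
    · have e1 := hh x hxm
      have e2 := hh y hym
      have hd := det2 h
      rw [conj10, h10, h01] at e1
      have e3 : (x 0 0 - x 1 1) * (h 1 0 * h 1 1) = 0 := by linear_combination e1
      rcases mul_eq_zero.1 ((mul_eq_zero.1 e3).resolve_left (by assumption)) with e4 | e4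
      · rw [conj10, e4] at e2
        rw [e4, mul_zero, sub_zero] at hd
        have h1 : h 1 1 ≠ 0 := right_ne_zero_of_mul (a := h 0 0) (by rw [hd]; exact one_ne_zero)
        left
        apply (mul_eq_zero.1 (?_ : (h 1 1 * h 1 1) * y 1 0 = 0)).resolve_left (mul_ne_zero h1 h1)
        linear_combination e2
      · rw [conj10, e4] at e2
        rw [e4, mul_zero, zero_sub] at hd
        have h1 : h 1 0 ≠ 0 := by
          intro h'
          rw [h', mul_zero, neg_zero] at hd
          exact zero_ne_one hd
        right; left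
        apply (mul_eq_zero.1 (?_ : (h 1 0 * h 1 0) * y 0 1 = 0)).resolve_left (mul_ne_zero h1 h1)
        linear_combination -e2
    · right
      have hx1 : x * a = a * x := by
        refine (hh x hxm).resolve_right ?_
        intro hc
        have h3 := inv_tr h2 a x ha hc
        apply ‹x 0 0 - x 1 1 ≠ 0›
        linear_combination h3 - x 1 1 * h2
      rw [comm_iff] at hx1
      obtain ⟨-, c2, c3⟩ := hx1
      rw [h01, zero_mul] at c2
      rw [h10, zero_mul] at c3
      have a01 : a 0 1 = 0 := (mul_eq_zero.1 c2.symm).resolve_right (by assumption)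
      have a10 : a 1 0 = 0 := (mul_eq_zero.1 c3.symm).resolve_right (by assumption)
      have ha' : a 0 0 - a 1 1 ≠ 0 := by
        intro h'
        apply ha
        linear_combination h' + a 1 1 * h2
      rcases hh y hym with hy | hy
      · left
        rw [comm_iff] at hy
        obtain ⟨-, d2, -⟩ := hy
        rw [a01, zero_mul] at d2
        exact (mul_eq_zero.1 d2).resolve_right ha'
      · right
        have e00 := congrArg (fun z : SpecialLinearGroup (Fin 2) F => z 0 0) hy
        have e11 := congrArg (fun z : SpecialLinearGroup (Fin 2) F => z 1 1) hy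
        simp only [mulE, inv00, inv01, inv10, inv11, a01, a10] at e00 e11
        constructor
        · apply (mul_eq_zero.1 (?_ : y 0 0 * (a 0 0 - a 1 1) = 0)).resolve_right ha'
          linear_combination e00
        · apply (mul_eq_zero.1 (?_ : y 1 1 * (a 0 0 - a 1 1) = 0)).resolve_right ha'
          linear_combination -e11
  · rintro (h | h | ⟨h, h'⟩)
    · exact borel_cl x y h10 h
    · exact borel_cl' x y h01 h
    · apply solv_cl x
      · apply cent_comm
        rintro ⟨-, -, h3⟩
        exact hne h3
      · left; group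
      · right
        have hd := det2 y
        rw [h, zero_mul, zero_sub] at hd
        apply ext2 <;> simp only [mulE, inv00, inv01, inv10, inv11, h, h', h01, h10]
        · linear_combination x 1 1 * hd
        · ring
        · ring
        · linear_combination x 0 0 * hd

theorem crit3 (h2 : (2 : F) = 0) (x : SpecialLinearGroup (Fin 2) F) (hns : ∀ c : F, c * c + 1 ≠ c * (x 0 0 + x 1 1))
    (y : SpecialLinearGroup (Fin 2) F) :
    Group.IsSolvable (Subgroup.closure ({x, y} : Set (SpecialLinearGroup (Fin 2) F))) ↔
      (y * x = x * y ∨ y * x = x⁻¹ * y) := by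
  have hxm : x ∈ Subgroup.closure ({x, y} : Set (SpecialLinearGroup (Fin 2) F)) := Subgroup.subset_closure (by simp)
  have hym : y ∈ Subgroup.closure ({x, y} : Set (SpecialLinearGroup (Fin 2) F)) := Subgroup.subset_closure (by simp)
  have htr : x 0 0 + x 1 1 ≠ 0 := by
    intro h
    apply hns 1
    rw [h]
    linear_combination h2
  have h10 : x 1 0 ≠ 0 := by
    intro h
    apply hns (x 0 0)
    have := det2 x
    rw [h, mul_zero, sub_zero] at this
    linear_combination -this
  constructor
  · intro hs
    have hne : Subgroup.closure ({x, y} : Set (SpecialLinearGroup (Fin 2) F)) ≠ ⊥ := by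
      intro h
      rw [h, Subgroup.mem_bot] at hxm
      apply h10
      rw [hxm]; rfl
    rcases struct h2 _ hne hs with ⟨h, hh⟩ | ⟨a, ha, hh⟩
    · exfalso
      have e1 := hh x hxm
      have e2 := det2 (h * x * h⁻¹)
      rw [e1, mul_zero, sub_zero] at e2
      apply hns ((h * x * h⁻¹) 0 0)
      rw [← tr_conj2 h x]
      linear_combination -e2
    · have hx1 : x * a = a * x := by
        refine (hh x hxm).resolve_right ?_
        intro hc
        exact htr (inv_tr h2 a x ha hc)
      have hca := cent_comm a (by
        rintro ⟨-, -, h3⟩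
        apply ha
        linear_combination h3 + a 1 1 * h2)
      rcases hh y hym with hy | hy
      · left
        exact hca y x hy hx1
      · have hyx : (y * x * y⁻¹) * a = a * (y * x * y⁻¹) := by
          have e3 : y * a * y⁻¹ = a⁻¹ := by rw [hy]; group
          have e4 : (y * x * y⁻¹) * (y * a * y⁻¹) = (y * a * y⁻¹) * (y * x * y⁻¹) := by
            calc (y * x * y⁻¹) * (y * a * y⁻¹) = y * (x * a) * y⁻¹ := by group
              _ = _ := by rw [hx1]; group
          rw [e3] at e4
          calc (y * x * y⁻¹) * a = a * (a⁻¹ * (y * x * y⁻¹)) * a := by group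
            _ = a * ((y * x * y⁻¹) * a⁻¹) * a := by rw [e4]
            _ = _ := by group
        rcases twoconj h2 x (y * x * y⁻¹) htr (tr_conj2 y x) (hca _ _ hyx hx1) with h | h
        · left
          rwa [mul_inv_eq_iff_eq_mul] at h
        · right
          rwa [mul_inv_eq_iff_eq_mul] at h
  · intro h
    apply solv_cl x
    · apply cent_comm
      rintro ⟨-, h', -⟩
      exact h10 h'
    · left; group
    · rcases h with h | h
      · left; rw [h]; group
      · right; rw [h]; group

end CfsgLib.Sv
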