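import Cfsg.Agent.LibSv3

set_option autoImplicit false

/-! Solubilizers in `SL₂(q)`, `q` even, IV: counting (seat helper26). -/

namespace CfsgLib.Sv

open Matrix

theorem card_or {β : Type*} [Finite β] (P Q : β → Prop) (hd : ∀ y, P y → ¬ Q y) :
    Nat.card {y // P y ∨ Q y} = Nat.card {y // P y} + Nat.card {y // Q y} := by
  classical
  haveI := Fintype.ofFinite β
  rw [Nat.card_eq_fintype_card, Nat.card_eq_fintype_card, Nat.card_eq_fintype_card]
  apply Fintype.card_subtype_or_disjoint
  rw [Pi.disjoint_iff]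
  intro y
  rw [Prop.disjoint_iff]
  rw [not_and]
  exact hd y

theorem card_par {α β : Type*} (f : α → β) (hf : Function.Injective f) (P : β → Prop) (hP : ∀ y, P y ↔ ∃ a, f a = y) :
    Nat.card {y // P y} = Nat.card α := by
  symm
  refine Nat.card_congr (Equiv.ofBijective (fun a => (⟨f a, (hP _).2 ⟨a, rfl⟩⟩ : {y // P y})) ⟨?_, ?_⟩)
  · intro a b hab
    exact hf (congrArg Subtype.val hab)
  · rintro ⟨y, hy⟩
    obtain ⟨a, ha⟩ := (hP y).1 hy
    exact ⟨a, Subtype.ext ha⟩

variable {F : Type*} [Field F] [Fintype F]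

theorem card_units' : Nat.card Fˣ = Nat.card F - 1 := by
  classical
  rw [Nat.card_eq_fintype_card, Nat.card_eq_fintype_card, Fintype.card_units]

theorem card_phi (φ : F → F → F) :
    Nat.card {y : SpecialLinearGroup (Fin 2) F // y 1 0 ≠ 0 ∧ y 1 1 = φ (y 0 0) (y 1 0)} = (Nat.card F - 1) * Nat.card F := by
  rw [card_par (fun w : Fˣ × F => mk w.2 ((w.2 * φ w.2 w.1 - 1) / w.1) w.1 (φ w.2 w.1) (by
    have := w.1.ne_zero
    field_simp
    ring)), Nat.card_prod, card_units']
  · rintro ⟨u, a⟩ ⟨v, b⟩ h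
    have h00 := congrArg (fun z : SpecialLinearGroup (Fin 2) F => z 0 0) h
    have h10 := congrArg (fun z : SpecialLinearGroup (Fin 2) F => z 1 0) h
    simp only [mk00, mk10] at h00 h10
    exact Prod.ext (Units.ext h10) h00
  · intro y
    constructor
    · rintro ⟨h10, h11⟩
      refine ⟨(Units.mk0 _ h10, y 0 0), ?_⟩
      apply ext2
      · rw [mk00]
      · rw [mk01]
        have := det2 y
        simp only [Units.val_mk0]
        rw [← h11, div_eq_iff h10]
        linear_combination this
      · rw [mk10]; rfl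
      · rw [mk11]
        simp only [Units.val_mk0]
        exact h11.symm
    · rintro ⟨w, rfl⟩
      rw [mk10, mk11, mk00]
      exact ⟨w.1.ne_zero, rfl⟩

theorem card_bo : Nat.card {y : SpecialLinearGroup (Fin 2) F // y 1 0 = 0} = (Nat.card F - 1) * Nat.card F := by
  rw [card_par (fun w : Fˣ × F => mk (w.1 : F) w.2 0 (w.1 : F)⁻¹ (by
    have := w.1.ne_zero
    field_simp
    ring)), Nat.card_prod, card_units']
  · rintro ⟨u, a⟩ ⟨v, b⟩ h
    have h00 := congrArg (fun z : SpecialLinearGroup (Fin 2) F => z 0 0) h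
    have h01 := congrArg (fun z : SpecialLinearGroup (Fin 2) F => z 0 1) h
    simp only [mk00, mk01] at h00 h01
    exact Prod.ext (Units.ext h00) h01
  · intro y
    constructor
    · intro h10
      have hd := det2 y
      rw [h10, mul_zero, sub_zero] at hd
      have h0 : y 0 0 ≠ 0 := left_ne_zero_of_mul (b := y 1 1) (by rw [hd]; exact one_ne_zero)
      refine ⟨(Units.mk0 _ h0, y 0 1), ?_⟩
      apply ext2
      · rw [mk00]; rfl
      · rw [mk01]
      · rw [mk10]; exact h10.symm
      · rw [mk11]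
        simp only [Units.val_mk0]
        exact inv_eq_of_mul_eq_one_right hd
    · rintro ⟨w, rfl⟩
      rw [mk10]

/-- involutions -/
theorem card1 (h2 : (2 : F) = 0) (x : SpecialLinearGroup (Fin 2) F) (h10 : x 1 0 = 0) (h00 : x 0 0 = 1) (h11 : x 1 1 = 1)
    (h01 : x 0 1 ≠ 0) : Nat.card {y : SpecialLinearGroup (Fin 2) F // Group.IsSolvable (Subgroup.closure ({x, y} : Set (SpecialLinearGroup (Fin 2) F)))} =
      3 * Nat.card F * (Nat.card F - 1) := by
  have e : ∀ y : SpecialLinearGroup (Fin 2) F, Group.IsSolvable (Subgroup.closure ({x, y} : Set (SpecialLinearGroup (Fin 2) F))) ↔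
      (y 1 0 = 0 ∨ ((y 1 0 ≠ 0 ∧ y 1 1 = - y 0 0) ∨ (y 1 0 ≠ 0 ∧ y 1 1 = - y 0 0 - x 0 1 * y 1 0))) := by
    intro y
    rw [crit1 h2 x h10 h00 h11 h01 y]
    by_cases hy : y 1 0 = 0
    · simp [hy]
    · simp only [hy, false_or, ne_eq, not_false_eq_true, true_and]
      constructor
      · rintro (h | h)
        · left; linear_combination h
        · right; linear_combination h
      · rintro (h | h)
        · left; linear_combination h
        · right; linear_combination h
  rw [Nat.card_congr (Equiv.subtypeEquivRight e), card_or, card_or, card_bo, card_phi (fun a _ => -a), card_phi (fun a c => -a - x 0 1 * c)]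
  · ring
  · rintro y ⟨h, h1⟩ ⟨-, h3⟩
    rw [h1] at h3
    have : x 0 1 * y 1 0 = 0 := by linear_combination h3
    rcases mul_eq_zero.1 this with h' | h'
    · exact h01 h'
    · exact h h'
  · rintro y h (⟨h', -⟩ | ⟨h', -⟩) <;> exact h' h

/-- split elements -/
theorem card2 (h2 : (2 : F) = 0) (x : SpecialLinearGroup (Fin 2) F) (h10 : x 1 0 = 0) (h01 : x 0 1 = 0) (hne : x 0 0 - x 1 1 ≠ 0) :
    Nat.card {y : SpecialLinearGroup (Fin 2) F // Group.IsSolvable (Subgroup.closure ({x, y} : Set (SpecialLinearGroup (Fin 2) F)))} =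
      2 * Nat.card F * (Nat.card F - 1) := by
  have e : ∀ y : SpecialLinearGroup (Fin 2) F, Group.IsSolvable (Subgroup.closure ({x, y} : Set (SpecialLinearGroup (Fin 2) F))) ↔
      (y 1 0 = 0 ∨ (y 1 0 ≠ 0 ∧ y 1 1 = (y 0 0)⁻¹)) := by
    intro y
    rw [crit2 h2 x h10 h01 hne y]
    have hd := det2 y
    by_cases hy : y 1 0 = 0
    · simp [hy]
    · simp only [hy, false_or, ne_eq, not_false_eq_true, true_and]
      constructor
      · rintro (h | ⟨h, h'⟩)
        · rw [h, zero_mul, sub_zero] at hd
          exact (inv_eq_of_mul_eq_one_right hd).symm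
        · rw [h, h', _root_.inv_zero]
      · intro h
        by_cases h0 : y 0 0 = 0
        · right
          rw [h0, _root_.inv_zero] at h
          exact ⟨h0, h⟩
        · left
          rw [h, mul_inv_cancel₀ h0] at hd
          exact (mul_eq_zero.1 (by linear_combination -hd : y 0 1 * y 1 0 = 0)).resolve_right hy
  rw [Nat.card_congr (Equiv.subtypeEquivRight e), card_or, card_bo, card_phi (fun a _ => a⁻¹)]
  · ring
  · rintro y h ⟨h', -⟩
    exact h' h

theorem sq_inj (h2 : (2 : F) = 0) : Function.Injective (fun s : F => s * s) := by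
  intro s t h
  have h' : s * s = t * t := h
  have : (s - t) * (s - t) = 0 := by linear_combination h' + (t * t - s * t) * h2
  linear_combination mul_self_eq_zero.1 this

theorem card_norm (h2 : (2 : F) = 0) (Q : F → F → F) (hQ : ∀ s a c, Q (s * a) (s * c) = s * s * Q a c)
    (hQ0 : ∀ a c, Q a c = 0 → a = 0 ∧ c = 0) : Nat.card {w : F × F // Q w.1 w.2 = 1} = Nat.card F + 1 := by
  classical
  have hz : Q 0 0 = 0 := by
    have := hQ 0 0 0
    rwa [mul_zero, zero_mul] at this
  have hb : Nat.card {w : F × F // w ≠ 0} = Nat.card (Fˣ × {w : F × F // Q w.1 w.2 = 1}) := by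
    apply card_par (fun z : Fˣ × {w : F × F // Q w.1 w.2 = 1} => ((z.1 : F) * z.2.1.1, (z.1 : F) * z.2.1.2))
    · rintro ⟨s, ⟨⟨a, c⟩, h⟩⟩ ⟨t, ⟨⟨a', c'⟩, h'⟩⟩ he
      simp only [Prod.mk.injEq] at he h h'
      have e1 : (s : F) * s = t * t := by
        have p1 := hQ s a c
        have p2 := hQ t a' c'
        rw [h, mul_one] at p1
        rw [h', mul_one] at p2
        rw [← p1, ← p2, he.1, he.2]
      have e2 : (s : F) = t := sq_inj h2 e1
      rw [e2] at he
      have e3 := mul_left_cancel₀ t.ne_zero he.1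
      have e4 := mul_left_cancel₀ t.ne_zero he.2
      subst e3 e4
      rw [Units.ext e2]
    · rintro ⟨a, c⟩
      constructor
      · intro hw
        have hq : Q a c ≠ 0 := by
          intro h
          obtain ⟨rfl, rfl⟩ := hQ0 a c h
          exact hw rfl
        obtain ⟨s, hs⟩ := (Finite.injective_iff_surjective.1 (sq_inj h2)) (Q a c)
        have hs' : s * s = Q a c := hs
        have hs0 : s ≠ 0 := by
          rintro rfl
          rw [mul_zero] at hs'
          exact hq hs'.symm
        refine ⟨(Units.mk0 s hs0, ⟨(s⁻¹ * a, s⁻¹ * c), ?_⟩), ?_⟩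
        · change Q (s⁻¹ * a) (s⁻¹ * c) = 1
          rw [hQ, ← hs']
          field_simp
        · simp only [Units.val_mk0, Prod.mk.injEq]
          exact ⟨by field_simp, by field_simp⟩
      · rintro ⟨⟨s, ⟨⟨a', c'⟩, h⟩⟩, he⟩ hw
        simp only [Prod.mk.injEq] at he h
        have hw' : a = 0 ∧ c = 0 := by
          rw [Prod.mk_eq_zero] at hw
          exact hw
        have h1 : a' = 0 := (mul_eq_zero.1 (he.1.trans hw'.1)).resolve_left s.ne_zero
        have h2 : c' = 0 := (mul_eq_zero.1 (he.2.trans hw'.2)).resolve_left s.ne_zero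
        rw [h1, h2, hz] at h
        exact zero_ne_one h
  have hc : Nat.card {w : F × F // w ≠ 0} = Nat.card F * Nat.card F - 1 := by
    rw [Nat.card_eq_fintype_card, Nat.card_eq_fintype_card, Fintype.card_subtype_compl, Fintype.card_prod, Fintype.card_subtype_eq]
  rw [hc, Nat.card_prod, card_units'] at hb
  have hq : 2 ≤ Nat.card F := by
    rw [Nat.card_eq_fintype_card]
    exact Fintype.one_lt_card
  obtain ⟨m, hm⟩ := Nat.exists_eq_add_of_le hq
  rw [hm] at hb ⊢
  have e1 : (2 + m) * (2 + m) - 1 = (2 + m - 1) * (2 + m + 1) := by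
    have : 2 + m - 1 = m + 1 := by omega
    rw [this]
    apply Nat.sub_eq_of_eq_add
    ring
  rw [e1] at hb
  exact (Nat.eq_of_mul_eq_mul_left (by omega) hb).symm

/-- intertwiners between two elements with the same irreducible characteristic polynomial -/
theorem card_tw (h2 : (2 : F) = 0) (x x' : SpecialLinearGroup (Fin 2) F) (hns : ∀ c : F, c * c + 1 ≠ c * (x 0 0 + x 1 1))
    (htr : x' 0 0 + x' 1 1 = x 0 0 + x 1 1) :
    Nat.card {y : SpecialLinearGroup (Fin 2) F // y * x = x' * y} = Nat.card F + 1 := by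
  have d := det2 x
  have d' := det2 x'
  have h10 : x 1 0 ≠ 0 := by
    intro h
    apply hns (x 0 0)
    rw [h, mul_zero, sub_zero] at d
    linear_combination -d
  rw [← card_norm h2 (fun a c => (x' 1 0 * a * a + (x' 1 1 - x' 0 0) * a * c - x' 0 1 * c * c) / x 1 0)]
  · apply card_par (fun w : {w : F × F // (x' 1 0 * w.1 * w.1 + (x' 1 1 - x' 0 0) * w.1 * w.2 - x' 0 1 * w.2 * w.2) / x 1 0 = 1} =>
      mk w.1.1 (((x' 0 0 - x 0 0) * w.1.1 + x' 0 1 * w.1.2) / x 1 0) w.1.2 ((x' 1 0 * w.1.1 + (x' 1 1 - x 0 0) * w.1.2) / x 1 0) (by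
        refine Eq.trans ?_ w.2
        field_simp
        ring))
    · rintro ⟨⟨a, c⟩, h⟩ ⟨⟨a', c'⟩, h'⟩ he
      have h00 := congrArg (fun z : SpecialLinearGroup (Fin 2) F => z 0 0) he
      have h10 := congrArg (fun z : SpecialLinearGroup (Fin 2) F => z 1 0) he
      simp only [mk00, mk10] at h00 h10
      subst h00 h10
      rfl
    · intro y
      constructor
      · intro h
        have e00 := congrArg (fun z : SpecialLinearGroup (Fin 2) F => z 0 0) h
        have e10 := congrArg (fun z : SpecialLinearGroup (Fin 2) F => z 1 0) h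
        simp only [mulE] at e00 e10
        have f01 : ((x' 0 0 - x 0 0) * y 0 0 + x' 0 1 * y 1 0) / x 1 0 = y 0 1 := by
          rw [div_eq_iff h10]; linear_combination -e00
        have f11 : (x' 1 0 * y 0 0 + (x' 1 1 - x 0 0) * y 1 0) / x 1 0 = y 1 1 := by
          rw [div_eq_iff h10]; linear_combination -e10
        refine ⟨⟨(y 0 0, y 1 0), ?_⟩, ?_⟩
        · change (x' 1 0 * y 0 0 * y 0 0 + (x' 1 1 - x' 0 0) * y 0 0 * y 1 0 - x' 0 1 * y 1 0 * y 1 0) / x 1 0 = 1
          refine Eq.trans ?_ (det2 y)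
          rw [← f01, ← f11]
          field_simp
          ring
        · apply ext2
          · rw [mk00]
          · rw [mk01]; exact f01
          · rw [mk10]
          · rw [mk11]; exact f11
      · rintro ⟨⟨⟨a, c⟩, h⟩, rfl⟩
        apply ext2 <;> simp only [mulE, mk00, mk01, mk10, mk11]
        · field_simp
          ring
        · field_simp
          linear_combination (-a) * d + a * d' - (a * x' 0 0 + c * x' 0 1) * htr
        · field_simp
          ring
        · field_simp
          linear_combination (-c) * d + c * d' - (a * x' 1 0 + c * x' 1 1) * htr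
  · intro s a c
    field_simp
  · intro a c h
    rw [div_eq_zero_iff] at h
    have h' := h.resolve_right h10
    by_cases hc : c = 0
    · subst hc
      refine ⟨?_, rfl⟩
      by_contra ha
      have h1 : x' 1 0 = 0 := by
        apply (mul_eq_zero.1 (?_ : x' 1 0 * (a * a) = 0)).resolve_right (mul_ne_zero ha ha)
        linear_combination h'
      apply hns (x' 0 0)
      rw [← htr]
      rw [h1, mul_zero, sub_zero] at d'
      linear_combination -d'
    · exfalso
      apply hns ((x' 1 0 * a + x' 1 1 * c) / c)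
      rw [← htr]
      field_simp
      linear_combination (-c * c) * d' + x' 1 0 * h'

/-- non-split elements -/
theorem card3 (h2 : (2 : F) = 0) (x : SpecialLinearGroup (Fin 2) F) (hns : ∀ c : F, c * c + 1 ≠ c * (x 0 0 + x 1 1)) :
    Nat.card {y : SpecialLinearGroup (Fin 2) F // Group.IsSolvable (Subgroup.closure ({x, y} : Set (SpecialLinearGroup (Fin 2) F)))} =
      2 * (Nat.card F + 1) := by
  rw [Nat.card_congr (Equiv.subtypeEquivRight (crit3 h2 x hns)), card_or, card_tw h2 x x hns rfl, card_tw h2 x x⁻¹ hns (by rw [inv00, inv11]; ring)]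
  · ring
  · intro y h h'
    rw [h] at h'
    have e := mul_right_cancel h'
    have e00 := congrArg (fun z : SpecialLinearGroup (Fin 2) F => z 0 0) e
    simp only [inv00] at e00
    apply hns 1
    rw [e00]
    linear_combination (1 - x 1 1) * h2

end CfsgLib.Sv
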