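import Cfsg.Agent.LibSv4

set_option autoImplicit false

/-! Solubilizers in `SL₂(q)`, `q` even, V: element types (seat helper26). -/

namespace CfsgLib.Sv

open Matrix Polynomial

variable {F : Type*} [Field F] [Fintype F]

theorem ex_eig (x : SpecialLinearGroup (Fin 2) F) (hx : x ^ (Nat.card F) = x) : ∃ c : F, c * c + 1 = c * (x 0 0 + x 1 1) := by
  classical
  set q := Fintype.card F with hq
  have hq1 : 1 < q := Fintype.one_lt_card
  rw [Nat.card_eq_fintype_card, ← hq] at hx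
  have hprod : (∏ a : F, (X - C a)) = (X ^ q - X : F[X]) := by
    have hmonic : (X ^ q - X : F[X]).Monic := monic_X_pow_sub (by rw [degree_X]; exact_mod_cast hq1)
    have hr := FiniteField.roots_X_pow_card_sub_X F
    rw [← hq] at hr
    have := prod_multiset_X_sub_C_of_monic_of_roots_card_eq hmonic (by
      rw [hr, FiniteField.X_pow_card_sub_X_natDegree_eq F hq1, hq]; rfl)
    rw [hr] at this
    exact this
  let f : F[X] →* F := (Matrix.detMonoidHom).comp ((aeval (x : Matrix (Fin 2) (Fin 2) F)) : F[X] →ₐ[F] Matrix (Fin 2) (Fin 2) F).toMonoidHom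
  have hf : ∀ P : F[X], f P = (aeval (x : Matrix (Fin 2) (Fin 2) F) P).det := fun _ => rfl
  have h0 : f (∏ a : F, (X - C a)) = 0 := by
    rw [hprod, hf, map_sub, map_pow, aeval_X]
    have : (x : Matrix (Fin 2) (Fin 2) F) ^ q = x := by
      have := congrArg (fun z : SpecialLinearGroup (Fin 2) F => (z : Matrix (Fin 2) (Fin 2) F)) hx
      simpa using this
    rw [this, sub_self, Matrix.det_zero]
  rw [map_prod, Finset.prod_eq_zero_iff] at h0
  obtain ⟨a, -, ha⟩ := h0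
  refine ⟨a, ?_⟩
  rw [hf, map_sub, aeval_X, aeval_C, Matrix.det_fin_two] at ha
  have hd := det2 x
  simp [Matrix.algebraMap_matrix_apply] at ha
  linear_combination ha - hd

theorem pow_odd {x : SpecialLinearGroup (Fin 2) F} (hxx : x * x = 1) {n : ℕ} (hn : Odd n) : x ^ n = x := by
  obtain ⟨k, rfl⟩ := hn
  rw [pow_succ, pow_mul, sq, hxx, one_pow, one_mul]

theorem conj_pow' (h x : SpecialLinearGroup (Fin 2) F) (n : ℕ) : (h * x * h⁻¹) ^ n = h * x ^ n * h⁻¹ := by
  rw [conj_pow]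

theorem conj_ne_one {h x : SpecialLinearGroup (Fin 2) F} (hx : x ≠ 1) : h * x * h⁻¹ ≠ 1 := by
  intro e
  apply hx
  have : x = h⁻¹ * (h * x * h⁻¹) * h := by group
  rw [this, e]; group

theorem inv_type (h2 : (2 : F) = 0) (x : SpecialLinearGroup (Fin 2) F) (hx1 : x ≠ 1) (hxx : x * x = 1) :
    ∃ h : SpecialLinearGroup (Fin 2) F, (h * x * h⁻¹) 1 0 = 0 ∧ (h * x * h⁻¹) 0 0 = 1 ∧ (h * x * h⁻¹) 1 1 = 1 ∧ (h * x * h⁻¹) 0 1 ≠ 0 := by
  have ht : x 0 0 + x 1 1 = 0 := by
    by_contra ht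
    have e00 := congrArg (fun z : SpecialLinearGroup (Fin 2) F => z 0 0) hxx
    have e01 := congrArg (fun z : SpecialLinearGroup (Fin 2) F => z 0 1) hxx
    have e10 := congrArg (fun z : SpecialLinearGroup (Fin 2) F => z 1 0) hxx
    have e11 := congrArg (fun z : SpecialLinearGroup (Fin 2) F => z 1 1) hxx
    simp only [mulE, oneE00, oneE01, oneE10, oneE11] at e00 e01 e10 e11
    have hd := det2 x
    have p1 : x 0 0 * (x 0 0 + x 1 1) = 0 := by linear_combination e00 + hd + h2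
    have p2 : x 0 1 * (x 0 0 + x 1 1) = 0 := by linear_combination e01
    have q1 := (mul_eq_zero.1 p1).resolve_right ht
    have q2 := (mul_eq_zero.1 p2).resolve_right ht
    rw [q1, q2, zero_mul, zero_mul, sub_zero] at hd
    exact zero_ne_one hd
  obtain ⟨h, hh⟩ := tri x 1 (by rw [ht]; linear_combination h2)
  obtain ⟨u1, u2⟩ := unip h2 _ hh (by rw [tr_conj2, ht])
  refine ⟨h, hh, u1, u2, ?_⟩
  intro h01
  exact conj_ne_one hx1 (ext2 u1 h01 hh u2 : h * x * h⁻¹ = 1)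

theorem split_type (h2 : (2 : F) = 0) (hev : Even (Nat.card F)) (x : SpecialLinearGroup (Fin 2) F) (hx1 : x ≠ 1)
    (hx : x ^ (Nat.card F - 1) = 1) :
    ∃ h : SpecialLinearGroup (Fin 2) F, (h * x * h⁻¹) 1 0 = 0 ∧ (h * x * h⁻¹) 0 1 = 0 ∧ (h * x * h⁻¹) 0 0 - (h * x * h⁻¹) 1 1 ≠ 0 := by
  have hpos : 0 < Nat.card F := Nat.card_pos
  obtain ⟨c, hc⟩ := ex_eig x (by
    have e : Nat.card F = (Nat.card F - 1) + 1 := by omega
    rw [e, pow_succ, hx, one_mul])
  obtain ⟨h, hh⟩ := tri x c hc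
  obtain ⟨u, hu⟩ : ∃ u, u = h * x * h⁻¹ := ⟨_, rfl⟩
  rw [← hu] at hh
  have hne : u 0 0 - u 1 1 ≠ 0 := by
    intro he
    have huu : u * u = 1 := sq1 h2 u (by linear_combination he + u 1 1 * h2)
    have hup : u ^ (Nat.card F - 1) = 1 := by rw [hu, conj_pow', hx]; group
    rw [pow_odd huu (Nat.Even.sub_odd hpos hev odd_one)] at hup
    rw [hu] at hup
    exact conj_ne_one hx1 hup
  obtain ⟨k, hk⟩ : ∃ k : SpecialLinearGroup (Fin 2) F, k = mk 1 (u 0 1 / (u 0 0 - u 1 1)) 0 1 (by ring) := ⟨_, rfl⟩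
  have e : k * h * x * (k * h)⁻¹ = k * u * k⁻¹ := by rw [hu]; group
  refine ⟨k * h, ?_⟩
  rw [e]
  refine ⟨?_, ?_, ?_⟩
  · simp only [mulE, inv00, inv01, inv10, inv11, hk, mk00, mk01, mk10, mk11, hh]
    ring
  · simp only [mulE, inv00, inv01, inv10, inv11, hk, mk00, mk01, mk10, mk11, hh]
    field_simp
    ring
  · simp only [mulE, inv00, inv01, inv10, inv11, hk, mk00, mk01, mk10, mk11, hh]
    intro h'
    apply hne
    linear_combination h'

theorem upper_pow (u : SpecialLinearGroup (Fin 2) F) (h : u 1 0 = 0) (n : ℕ) : (u ^ n) 1 0 = 0 ∧ (u ^ n) 0 0 = (u 0 0) ^ n := by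
  induction n with
  | zero => exact ⟨by rw [pow_zero]; rfl, by rw [pow_zero, pow_zero]; rfl⟩
  | succ n ih =>
    rw [pow_succ, mulE, mulE, ih.1, ih.2, h, pow_succ]
    exact ⟨by ring, by ring⟩

theorem nonsplit_type (h2 : (2 : F) = 0) (hev : Even (Nat.card F)) (x : SpecialLinearGroup (Fin 2) F) (hx1 : x ≠ 1)
    (hx : x ^ (Nat.card F + 1) = 1) : ∀ c : F, c * c + 1 ≠ c * (x 0 0 + x 1 1) := by
  intro c hc
  obtain ⟨h, hh⟩ := tri x c hc
  obtain ⟨u, hu⟩ : ∃ u, u = h * x * h⁻¹ := ⟨_, rfl⟩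
  rw [← hu] at hh
  have hup : u ^ (Nat.card F + 1) = 1 := by rw [hu, conj_pow', hx]; group
  have hu1 : u ≠ 1 := by rw [hu]; exact conj_ne_one hx1
  have e1 := (upper_pow u hh (Nat.card F + 1)).2
  rw [hup, oneE00, pow_succ, Nat.card_eq_fintype_card, FiniteField.pow_card] at e1
  have e2 : (u 0 0 - 1) * (u 0 0 - 1) = 0 := by
    linear_combination -e1 + (1 - u 0 0) * h2
  have e3 : u 0 0 = 1 := by linear_combination mul_self_eq_zero.1 e2
  have hd := det2 u
  rw [hh, e3, mul_zero, sub_zero, one_mul] at hd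
  have huu : u * u = 1 := sq1 h2 u (by rw [e3, hd]; linear_combination h2)
  rw [pow_odd huu (Even.add_odd hev odd_one)] at hup
  exact hu1 hup

/-- `SL₂(q) ≅ PSL₂(q)`, `q` even. -/
noncomputable def pse (h2 : (2 : F) = 0) : SpecialLinearGroup (Fin 2) F ≃* Matrix.ProjectiveSpecialLinearGroup (Fin 2) F :=
  MulEquiv.ofBijective (QuotientGroup.mk' (Subgroup.center (SpecialLinearGroup (Fin 2) F))) ⟨by
    rw [injective_iff_map_eq_one]
    intro a ha
    rw [QuotientGroup.mk'_apply, QuotientGroup.eq_one_iff, Matrix.SpecialLinearGroup.mem_center_iff] at ha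
    obtain ⟨r, hr, hz⟩ := ha
    rw [Fintype.card_fin] at hr
    have e2 : (r - 1) * (r - 1) = 0 := by
      linear_combination hr + (1 - r) * h2
    have e3 : r = 1 := by linear_combination mul_self_eq_zero.1 e2
    apply Subtype.ext
    rw [← hz, e3]
    ext i j
    fin_cases i <;> fin_cases j <;> simp, QuotientGroup.mk'_surjective _⟩

theorem result {F : Type*} [Field F] [Fintype F] (p : ℕ) (hp : p.Prime)
    (hF : Fintype.card F = 2 ^ p) (x : Matrix.ProjectiveSpecialLinearGroup (Fin 2) F) :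
    (orderOf x = 2 → Nat.card {y : Matrix.ProjectiveSpecialLinearGroup (Fin 2) F // Group.IsSolvable ↥(Subgroup.closure ({x, y} : Set (Matrix.ProjectiveSpecialLinearGroup (Fin 2) F)))} = 3 * 2 ^ p * (2 ^ p - 1)) ∧
    (x ≠ 1 → orderOf x ∣ 2 ^ p - 1 → Nat.card {y : Matrix.ProjectiveSpecialLinearGroup (Fin 2) F // Group.IsSolvable ↥(Subgroup.closure ({x, y} : Set (Matrix.ProjectiveSpecialLinearGroup (Fin 2) F)))} = 2 * 2 ^ p * (2 ^ p - 1)) ∧
    (x ≠ 1 → orderOf x ∣ 2 ^ p + 1 → Nat.card {y : Matrix.ProjectiveSpecialLinearGroup (Fin 2) F // Group.IsSolvable ↥(Subgroup.closure ({x, y} : Set (Matrix.ProjectiveSpecialLinearGroup (Fin 2) F)))} = 2 * (2 ^ p + 1)) := by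
  have hN : Nat.card F = 2 ^ p := by rw [Nat.card_eq_fintype_card, hF]
  have h2 : (2 : F) = 0 := by
    have := FiniteField.cast_card_eq_zero F
    rw [hF] at this
    push_cast at this
    exact pow_eq_zero_iff hp.ne_zero |>.1 this
  have hev : Even (Nat.card F) := by
    rw [hN]
    exact (Nat.even_pow.2 ⟨even_two, hp.ne_zero⟩)
  obtain ⟨x, rfl⟩ := (pse h2).surjective x
  rw [card_equiv (pse h2) x, MulEquiv.orderOf_eq, ← hN]
  have hne : (pse h2) x ≠ 1 → x ≠ 1 := by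
    rintro h rfl
    exact h (map_one _)
  refine ⟨?_, ?_, ?_⟩
  · intro ho
    have hx1 : x ≠ 1 := by
      rintro rfl
      rw [orderOf_one] at ho
      omega
    have hxx : x * x = 1 := by
      have := pow_orderOf_eq_one x
      rw [ho, sq] at this
      exact this
    obtain ⟨h, h10, h00, h11, h01⟩ := inv_type h2 x hx1 hxx
    rw [← card_conj h x]
    exact card1 h2 _ h10 h00 h11 h01
  · intro h1 ho
    obtain ⟨h, h10, h01, hd⟩ := split_type h2 hev x (hne h1) (orderOf_dvd_iff_pow_eq_one.1 ho)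
    rw [← card_conj h x]
    exact card2 h2 _ h10 h01 hd
  · intro h1 ho
    exact card3 h2 x (nonsplit_type h2 hev x (hne h1) (orderOf_dvd_iff_pow_eq_one.1 ho))

end CfsgLib.Sv
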