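import Cfsg.Agent.LibSv5

set_option autoImplicit false

/-! Solubilizers in `SL₂(3^p)`, I: generalities and the structure of solvable subgroups (seat helper26). -/

namespace CfsgLib.Sw

open Matrix CfsgLib.Sv

section General

variable {G : Type*} [Group G]

theorem ex_ab2 {K : Type*} [Group K] (h : Group.IsSolvable K) (Z : Subgroup K) (hZ : ¬ (⊤ : Subgroup K) ≤ Z) :
    ∃ A : Subgroup K, A.Normal ∧ ¬ A ≤ Z ∧ ∀ a ∈ A, ∀ b ∈ A, a * b * a⁻¹ * b⁻¹ ∈ Z := by
  classical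
  have hex : ∃ n, derivedSeries K n ≤ Z := by
    rw [isSolvable_def] at h
    obtain ⟨n, hn⟩ := h
    exact ⟨n, by rw [hn]; exact bot_le⟩
  have h0 : Nat.find hex ≠ 0 := by
    intro h0
    have h1 := Nat.find_spec hex
    rw [h0, derivedSeries_zero] at h1
    exact hZ h1
  obtain ⟨n, hn⟩ := Nat.exists_eq_succ_of_ne_zero h0
  refine ⟨derivedSeries K n, derivedSeries_normal K n, Nat.find_min hex (by omega), ?_⟩
  have h1 := Nat.find_spec hex
  rw [hn, Nat.succ_eq_add_one, derivedSeries_succ, Subgroup.commutator_le] at h1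
  intro a ha b hb
  have := h1 a ha b hb
  rwa [commutatorElement_def] at this

theorem ex_A (K Z : Subgroup G) (hs : Group.IsSolvable K) (hZ : ¬ K ≤ Z) :
    ∃ A : Subgroup G, (∀ g ∈ K, ∀ a ∈ A, g * a * g⁻¹ ∈ A) ∧ (∃ a ∈ A, a ∉ Z) ∧ ∀ a ∈ A, ∀ b ∈ A, a * b * a⁻¹ * b⁻¹ ∈ Z := by
  obtain ⟨A, hA, hA1, hA2⟩ := ex_ab2 hs (Z.subgroupOf K) (by
    intro h
    apply hZ
    intro k hk
    exact h (x := ⟨k, hk⟩) (Subgroup.mem_top _))
  refine ⟨A.map K.subtype, ?_, ?_, ?_⟩
  · rintro g hg _ ⟨a, ha, rfl⟩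
    exact ⟨⟨g, hg⟩ * a * ⟨g, hg⟩⁻¹, hA.conj_mem a ha _, rfl⟩
  · rw [SetLike.not_le_iff_exists] at hA1
    obtain ⟨a, ha, ha'⟩ := hA1
    exact ⟨a, ⟨a, ha, rfl⟩, ha'⟩
  · rintro _ ⟨a, ha, rfl⟩ _ ⟨b, hb, rfl⟩
    exact hA2 a ha b hb

theorem solv_norm (Q : Subgroup G) (hQ : Group.IsSolvable Q) (x : G) (hx : ∀ g ∈ Q, x * g * x⁻¹ ∈ Q) (hx' : ∀ g ∈ Q, x⁻¹ * g * x ∈ Q) :
    Group.IsSolvable (Subgroup.closure ((Q : Set G) ∪ {x})) := by
  obtain ⟨K, hK⟩ : ∃ K, K = Subgroup.closure ((Q : Set G) ∪ {x}) := ⟨_, rfl⟩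
  rw [← hK]
  have hxK : x ∈ K := by rw [hK]; exact Subgroup.subset_closure (by simp)
  have hQK : Q ≤ K := by
    rw [hK]
    intro g hg
    exact Subgroup.subset_closure (Or.inl hg)
  have hnorm : ∀ k ∈ K, ∀ g ∈ Q, k * g * k⁻¹ ∈ Q ∧ k⁻¹ * g * k ∈ Q := by
    intro k hk
    rw [hK] at hk
    induction hk using Subgroup.closure_induction with
    | mem y hy =>
      rcases hy with hy | hy
      · intro g hg
        exact ⟨Q.mul_mem (Q.mul_mem hy hg) (Q.inv_mem hy), Q.mul_mem (Q.mul_mem (Q.inv_mem hy) hg) hy⟩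
      · rw [Set.mem_singleton_iff] at hy
        subst hy
        intro g hg
        exact ⟨hx g hg, hx' g hg⟩
    | one => intro g hg; simpa using hg
    | mul a b _ _ iha ihb =>
      intro g hg
      have e1 : a * b * g * (a * b)⁻¹ = a * (b * g * b⁻¹) * a⁻¹ := by group
      have e2 : (a * b)⁻¹ * g * (a * b) = b⁻¹ * (a⁻¹ * g * a) * b := by group
      rw [e1, e2]
      exact ⟨(iha _ (ihb g hg).1).1, (ihb _ (iha g hg).2).2⟩
    | inv a _ iha =>
      intro g hg
      rw [inv_inv]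
      exact ⟨(iha g hg).2, (iha g hg).1⟩
  have hN : (Q.subgroupOf K).Normal := by
    constructor
    rintro ⟨n, hn⟩ hnQ ⟨k, hk⟩
    exact (hnorm k hk n hnQ).1
  haveI : Group.IsSolvable (Q.subgroupOf K) := by
    exact Group.isSolvable_of_isSolvable_injective (f := (Subgroup.subgroupOfEquivOfLe hQK).toMonoidHom) (MulEquiv.injective _)
  have hcyc : ∀ (k : G) (hk : k ∈ K), (QuotientGroup.mk' (Q.subgroupOf K)) ⟨k, hk⟩ ∈
      Subgroup.zpowers ((QuotientGroup.mk' (Q.subgroupOf K)) ⟨x, hxK⟩) := by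
    intro k hk
    have hk' := hk
    rw [hK] at hk'
    induction hk' using Subgroup.closure_induction with
    | mem y hy =>
      rcases hy with hy | hy
      · have : (QuotientGroup.mk' (Q.subgroupOf K)) ⟨y, hk⟩ = 1 := by
          rw [QuotientGroup.mk'_apply, QuotientGroup.eq_one_iff]
          exact hy
        rw [this]
        exact Subgroup.one_mem _
      · rw [Set.mem_singleton_iff] at hy
        subst hy
        exact Subgroup.mem_zpowers _
    | one =>
      have : (QuotientGroup.mk' (Q.subgroupOf K)) ⟨1, hk⟩ = 1 := map_one _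
      rw [this]
      exact Subgroup.one_mem _
    | mul a b ha hb iha ihb =>
      have ha' : a ∈ K := by rw [hK]; exact ha
      have hb' : b ∈ K := by rw [hK]; exact hb
      have : (QuotientGroup.mk' (Q.subgroupOf K)) ⟨a * b, hk⟩ = (QuotientGroup.mk' (Q.subgroupOf K)) ⟨a, ha'⟩ *
          (QuotientGroup.mk' (Q.subgroupOf K)) ⟨b, hb'⟩ := by
        rw [← map_mul]; rfl
      rw [this]
      exact Subgroup.mul_mem _ (iha ha') (ihb hb')
    | inv a ha iha =>
      have ha' : a ∈ K := by rw [hK]; exact ha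
      have : (QuotientGroup.mk' (Q.subgroupOf K)) ⟨a⁻¹, hk⟩ = ((QuotientGroup.mk' (Q.subgroupOf K)) ⟨a, ha'⟩)⁻¹ := by
        rw [← map_inv]; rfl
      rw [this]
      exact Subgroup.inv_mem _ (iha ha')
  haveI : Group.IsSolvable (K ⧸ Q.subgroupOf K) := by
    apply Group.isSolvable_of_comm
    intro a b
    obtain ⟨⟨a, ha⟩, rfl⟩ := QuotientGroup.mk'_surjective _ a
    obtain ⟨⟨b, hb⟩, rfl⟩ := QuotientGroup.mk'_surjective _ b
    obtain ⟨m, hm⟩ := hcyc a ha
    obtain ⟨n, hn⟩ := hcyc b hb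
    simp only at hm hn
    rw [← hm, ← hn, ← _root_.zpow_add, ← _root_.zpow_add, add_comm]
  exact Group.isSolvable_of_ker_le_range (Q.subgroupOf K).subtype (QuotientGroup.mk' (Q.subgroupOf K)) (by
    rw [QuotientGroup.ker_mk', Subgroup.range_subtype])

end General

variable {F : Type*} [Field F]

/-- scalar matrices -/
def Zs (F : Type*) [Field F] : Subgroup (SpecialLinearGroup (Fin 2) F) where
  carrier := {g | g 0 1 = 0 ∧ g 1 0 = 0 ∧ g 0 0 = g 1 1}
  mul_mem' := by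
    rintro a b ⟨ha, ha', ha''⟩ ⟨hb, hb', hb''⟩
    refine ⟨?_, ?_, ?_⟩
    · rw [mulE, ha, hb]; ring
    · rw [mulE, ha', hb']; ring
    · rw [mulE, mulE, ha, ha', hb, ha'', hb'']; ring
  one_mem' := ⟨rfl, rfl, rfl⟩
  inv_mem' := by
    rintro a ⟨ha, ha', ha''⟩
    exact ⟨by rw [inv01, ha, neg_zero], by rw [inv10, ha', neg_zero], by rw [inv00, inv11, ha'']⟩

theorem mem_Zs {g : SpecialLinearGroup (Fin 2) F} : g ∈ Zs F ↔ (g 0 1 = 0 ∧ g 1 0 = 0 ∧ g 0 0 = g 1 1) := Iff.rfl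

/-- minus the identity -/
def nI (F : Type*) [Field F] : SpecialLinearGroup (Fin 2) F := mk (-1) 0 0 (-1) (by ring)

theorem nIE (g : SpecialLinearGroup (Fin 2) F) (i j : Fin 2) : (nI F * g) i j = - g i j := by
  rw [mulE]
  fin_cases i
  · change (-1) * g 0 j + 0 * g 1 j = - g 0 j
    ring
  · change 0 * g 0 j + (-1) * g 1 j = - g 1 j
    ring

theorem nI_comm (g : SpecialLinearGroup (Fin 2) F) : g * nI F = nI F * g := by
  apply ext2 <;> rw [nIE, mulE]
  · change g 0 0 * (-1) + g 0 1 * 0 = _; ring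
  · change g 0 0 * 0 + g 0 1 * (-1) = _; ring
  · change g 1 0 * (-1) + g 1 1 * 0 = _; ring
  · change g 1 0 * 0 + g 1 1 * (-1) = _; ring

theorem nI_sq : nI F * nI F = 1 := by
  apply ext2 <;> rw [nIE]
  · exact neg_neg 1
  · exact neg_zero
  · exact neg_zero
  · exact neg_neg 1

theorem nI_inv : (nI F)⁻¹ = nI F := inv_eq_of_mul_eq_one_right nI_sq

theorem Zs_cases {g : SpecialLinearGroup (Fin 2) F} (hg : g ∈ Zs F) : g = 1 ∨ g = nI F := by
  obtain ⟨h1, h2, h3⟩ := mem_Zs.1 hg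
  have hd := det2 g
  rw [h1, h3, zero_mul, sub_zero] at hd
  have e : (g 1 1 - 1) * (g 1 1 + 1) = 0 := by linear_combination hd
  rcases mul_eq_zero.1 e with h | h
  · left
    have h' : g 1 1 = 1 := by linear_combination h
    exact ext2 (h3.trans h') h1 h2 h'
  · right
    have h' : g 1 1 = -1 := by linear_combination h
    exact ext2 (h3.trans h') h1 h2 h'

theorem one_mem_Zs : (1 : SpecialLinearGroup (Fin 2) F) ∈ Zs F := Subgroup.one_mem _
theorem nI_mem_Zs : nI F ∈ Zs F := ⟨rfl, rfl, rfl⟩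

theorem Zs_conj {g h : SpecialLinearGroup (Fin 2) F} : h * g * h⁻¹ ∈ Zs F ↔ g ∈ Zs F := by
  constructor
  · intro hm
    have e : g = h⁻¹ * (h * g * h⁻¹) * h := by group
    rcases Zs_cases hm with h' | h'
    · rw [e, h']; simpa using one_mem_Zs
    · rw [e, h', nI_comm, mul_assoc, inv_mul_cancel, mul_one]; exact nI_mem_Zs
  · intro hm
    rcases Zs_cases hm with h' | h'
    · rw [h']; simpa using one_mem_Zs
    · rw [h', nI_comm, mul_assoc, mul_inv_cancel, mul_one]; exact nI_mem_Zs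

theorem comm_cases {a b : SpecialLinearGroup (Fin 2) F} (h : a * b * a⁻¹ * b⁻¹ ∈ Zs F) : a * b = b * a ∨ a * b = nI F * (b * a) := by
  have e : a * b = (a * b * a⁻¹ * b⁻¹) * (b * a) := by group
  rcases Zs_cases h with h' | h'
  · left; rw [e, h', one_mul]
  · right; rw [h'] at e; exact e

theorem anti_tr (h2 : (2 : F) ≠ 0) {a b : SpecialLinearGroup (Fin 2) F} (h : a * b = nI F * (b * a)) :
    a 0 0 + a 1 1 = 0 ∧ b 0 0 + b 1 1 = 0 := by
  constructor
  · have e : b⁻¹ * a * b⁻¹⁻¹ = nI F * a := by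
      rw [inv_inv, mul_assoc, h, ← mul_assoc, nI_comm, mul_assoc, ← mul_assoc b⁻¹, inv_mul_cancel, one_mul]
    have := tr_conj2 b⁻¹ a
    rw [e, nIE, nIE] at this
    apply (mul_eq_zero.1 (?_ : 2 * (a 0 0 + a 1 1) = 0)).resolve_left h2
    linear_combination -this
  · have e : a * b * a⁻¹ = nI F * b := by
      rw [h]; group
    have := tr_conj2 a b
    rw [e, nIE, nIE] at this
    apply (mul_eq_zero.1 (?_ : 2 * (b 0 0 + b 1 1) = 0)).resolve_left h2
    linear_combination -this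

theorem inv_tr' (a g : SpecialLinearGroup (Fin 2) F) (ha : a ∉ Zs F) (h : g * a = a⁻¹ * g) :
    g 0 0 + g 1 1 = 0 := by
  have e00 := congrArg (fun z : SpecialLinearGroup (Fin 2) F => z 0 0) h
  have e01 := congrArg (fun z : SpecialLinearGroup (Fin 2) F => z 0 1) h
  have e10 := congrArg (fun z : SpecialLinearGroup (Fin 2) F => z 1 0) h
  have e11 := congrArg (fun z : SpecialLinearGroup (Fin 2) F => z 1 1) h
  simp only [mulE, inv00, inv01, inv10, inv11] at e00 e01 e10 e11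
  by_contra ht
  apply ha
  refine ⟨?_, ?_, ?_⟩
  · apply (mul_eq_zero.1 (?_ : a 0 1 * (g 0 0 + g 1 1) = 0)).resolve_right ht
    linear_combination e01
  · apply (mul_eq_zero.1 (?_ : a 1 0 * (g 0 0 + g 1 1) = 0)).resolve_right ht
    linear_combination e10
  · have := (mul_eq_zero.1 (?_ : (a 0 0 - a 1 1) * (g 0 0 + g 1 1) = 0)).resolve_right ht
    · linear_combination this
    · linear_combination e00 - e11

/-- the two conjugates of `a` inside its centraliser -/
theorem twoconj' (h2 : (2 : F) ≠ 0) (a b : SpecialLinearGroup (Fin 2) F) (ha : (a 0 0 + a 1 1) * (a 0 0 + a 1 1) ≠ 4)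
    (ht : b 0 0 + b 1 1 = a 0 0 + a 1 1) (hab : b * a = a * b) : b = a ∨ b = a⁻¹ := by
  rw [comm_iff] at hab
  obtain ⟨c1, c2, c3⟩ := hab
  have da := det2 a
  have db := det2 b
  have hD : (a 0 0 - a 1 1) * (a 0 0 - a 1 1) + 4 * (a 0 1 * a 1 0) ≠ 0 := by
    intro h
    apply ha
    linear_combination h + 4 * da
  obtain ⟨β, h1, h1', h1''⟩ : ∃ β : F, b 0 1 = β * a 0 1 ∧ b 1 0 = β * a 1 0 ∧ b 0 0 - b 1 1 = β * (a 0 0 - a 1 1) := by
    by_cases v1 : a 0 1 = 0
    · have v3 : a 0 0 - a 1 1 ≠ 0 := by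
        intro h
        apply hD
        rw [v1, h]; ring
      refine ⟨(b 0 0 - b 1 1) / (a 0 0 - a 1 1), ?_, ?_, ?_⟩
      · field_simp; linear_combination c2
      · field_simp; linear_combination c3
      · field_simp
    · refine ⟨b 0 1 / a 0 1, ?_, ?_, ?_⟩
      · field_simp
      · field_simp; linear_combination -c1
      · field_simp; linear_combination -c2
  have hβ : (β - 1) * (β + 1) = 0 := by
    apply (mul_eq_zero.1 (?_ : ((β - 1) * (β + 1)) * ((a 0 0 - a 1 1) * (a 0 0 - a 1 1) + 4 * (a 0 1 * a 1 0)) = 0)).resolve_right hD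
    have e1 : (b 0 0 - b 1 1) * (b 0 0 - b 1 1) + 4 * (b 0 1 * b 1 0) = β * β * ((a 0 0 - a 1 1) * (a 0 0 - a 1 1) + 4 * (a 0 1 * a 1 0)) := by
      rw [h1, h1', h1'']; ring
    linear_combination -e1 + (b 0 0 + b 1 1 + a 0 0 + a 1 1) * ht - 4 * db + 4 * da
  rcases mul_eq_zero.1 hβ with h | h
  · left
    have hβ' : β = 1 := by linear_combination h
    rw [hβ', one_mul] at h1 h1' h1''
    refine ext2 ?_ h1 h1' ?_ <;> apply mul_left_cancel₀ h2
    · linear_combination ht + h1''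
    · linear_combination ht - h1''
  · right
    have hβ' : β = -1 := by linear_combination h
    rw [hβ', neg_one_mul] at h1 h1' h1''
    apply ext2
    · rw [inv00]; apply mul_left_cancel₀ h2; linear_combination ht + h1''
    · rw [inv01]; exact h1
    · rw [inv10]; exact h1'
    · rw [inv11]; apply mul_left_cancel₀ h2; linear_combination ht - h1''

theorem cb2 (u k : SpecialLinearGroup (Fin 2) F) (h10 : u 1 0 = 0) (h00 : u 0 0 = u 1 1) (h01 : u 0 1 ≠ 0)
    (hcom : (k * u * k⁻¹) * u = u * (k * u * k⁻¹)) : k 1 0 = 0 := by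
  rw [comm_iff] at hcom
  obtain ⟨c1, -, -⟩ := hcom
  rw [h10, mul_zero, conj10, h00, h10] at c1
  have c2 : u 0 1 * (u 0 1 * (k 1 0 * k 1 0)) = 0 := by linear_combination c1
  exact mul_self_eq_zero.1 ((mul_eq_zero.1 ((mul_eq_zero.1 c2).resolve_left h01)).resolve_left h01)

end CfsgLib.Sw
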