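import Cfsg.Agent.LibSw1

set_option autoImplicit false

/-! Solubilizers in `SL₂(3^p)`, II: the structure of solvable subgroups (seat helper26). -/

namespace CfsgLib.Sw

open Matrix CfsgLib.Sv

variable {F : Type*} [Field F]

theorem trAB (a b : SpecialLinearGroup (Fin 2) F) : ((a * b) 0 0 + (a * b) 1 1) + ((a * b⁻¹) 0 0 + (a * b⁻¹) 1 1) =
    (a 0 0 + a 1 1) * (b 0 0 + b 1 1) := by
  simp only [mulE, inv00, inv01, inv10, inv11]
  ring

theorem tr_comm (a b : SpecialLinearGroup (Fin 2) F) : (a * b) 0 0 + (a * b) 1 1 = (b * a) 0 0 + (b * a) 1 1 := by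
  simp only [mulE]
  ring

theorem tr_inv (a : SpecialLinearGroup (Fin 2) F) : a⁻¹ 0 0 + a⁻¹ 1 1 = a 0 0 + a 1 1 := by
  rw [inv00, inv11, add_comm]

/-- trace -/
def tr2 (a : SpecialLinearGroup (Fin 2) F) : F := a 0 0 + a 1 1

theorem tr2_mul_comm (a b : SpecialLinearGroup (Fin 2) F) : tr2 (a * b) = tr2 (b * a) := tr_comm a b
theorem tr2_inv (a : SpecialLinearGroup (Fin 2) F) : tr2 a⁻¹ = tr2 a := tr_inv a
theorem tr2_conj (h a : SpecialLinearGroup (Fin 2) F) : tr2 (h * a * h⁻¹) = tr2 a := tr_conj2 h a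
theorem tr2_mul (a b : SpecialLinearGroup (Fin 2) F) : tr2 (a * b) = tr2 a * tr2 b - tr2 (a * b⁻¹) := by
  have := trAB a b
  unfold tr2
  linear_combination this
theorem tr2_one : tr2 (1 : SpecialLinearGroup (Fin 2) F) = 2 := by
  unfold tr2
  rw [oneE00, oneE11]; ring
theorem tr2_nI (a : SpecialLinearGroup (Fin 2) F) : tr2 (nI F * a) = - tr2 a := by
  unfold tr2
  rw [nIE, nIE]; ring
theorem tr2_sq (a : SpecialLinearGroup (Fin 2) F) : tr2 (a * a) = tr2 a * tr2 a - 2 := by
  rw [tr2_mul, mul_inv_cancel, tr2_one]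

/-- Fricke, for elements of trace zero -/
theorem fricke (h x : SpecialLinearGroup (Fin 2) F) (hx : tr2 x = 0) :
    tr2 (h * x * h⁻¹ * x⁻¹) = tr2 h * tr2 h + tr2 (h * x) * tr2 (h * x) - 2 := by
  have e1 : tr2 (h * x * h⁻¹ * x) = 0 - tr2 (h * x * h⁻¹ * x⁻¹) := by
    rw [tr2_mul, tr2_conj, hx, zero_mul]
  have e2 : tr2 (h * x * (h⁻¹ * x)) = tr2 (h * x) * tr2 (h⁻¹ * x) - tr2 (h * x * (h⁻¹ * x)⁻¹) := tr2_mul _ _
  have e3 : h * x * (h⁻¹ * x)⁻¹ = h * h := by group
  have e4 : tr2 (h⁻¹ * x) = tr2 x * tr2 h - tr2 (h * x) := by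
    rw [tr2_mul_comm, tr2_mul, inv_inv, tr2_inv, tr2_mul_comm]
  rw [e3, e4, tr2_sq, ← mul_assoc (h * x) h⁻¹ x, e1, hx] at e2
  linear_combination -e2

/-- the standard element of order four -/
def JJ (F : Type*) [Field F] : SpecialLinearGroup (Fin 2) F := mk 0 (-1) 1 0 (by ring)

section Three

variable [Fintype F] (h3 : (3 : F) = 0) (hns : ∀ c : F, c * c ≠ -1)

include h3 in
theorem two_ne : (2 : F) ≠ 0 := by
  intro h
  have : (1 : F) = 0 := by linear_combination h3 - h
  exact one_ne_zero this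

include h3 hns in
theorem sq_or (c : F) : ∃ s : F, c = s * s ∨ c = -(s * s) := by
  classical
  have hch : ringChar F ≠ 2 := by
    intro h
    have := CharP.cast_eq_zero F (ringChar F)
    rw [h] at this
    push_cast at this
    exact two_ne h3 this
  by_cases hc : IsSquare c
  · obtain ⟨s, hs⟩ := hc
    exact ⟨s, Or.inl hs⟩
  · have h1 : quadraticChar F c = -1 := quadraticChar_neg_one_iff_not_isSquare.2 hc
    have h2 : quadraticChar F (-1) = -1 := by
      apply quadraticChar_neg_one_iff_not_isSquare.2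
      rintro ⟨s, hs⟩
      exact hns s hs.symm
    have hc0 : c ≠ 0 := by
      rintro rfl
      exact hc ⟨0, by ring⟩
    have h4 : quadraticChar F (-1 * c) = 1 := by
      rw [map_mul, h1, h2]; norm_num
    rw [quadraticChar_one_iff_isSquare (mul_ne_zero (neg_ne_zero.2 one_ne_zero) hc0)] at h4
    obtain ⟨s, hs⟩ := h4
    exact ⟨s, Or.inr (by linear_combination -hs)⟩

include h3 hns in
theorem sum_sq (c : F) : ∃ u v : F, u * u + v * v = c := by
  obtain ⟨s, hs | hs⟩ := sq_or h3 hns c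
  · exact ⟨s, 0, by rw [hs]; ring⟩
  · exact ⟨s, s, by rw [hs]; linear_combination s * s * h3⟩

include hns in
theorem sq_sum_ne {u v : F} (h : u * u + v * v = 0) : u = 0 ∧ v = 0 := by
  by_cases hv : v = 0
  · subst hv
    refine ⟨mul_self_eq_zero.1 (by linear_combination h), rfl⟩
  · exfalso
    apply hns (u / v)
    field_simp
    linear_combination h

include h3 hns in
theorem toJ (a : SpecialLinearGroup (Fin 2) F) (ha : tr2 a = 0) : ∃ g : SpecialLinearGroup (Fin 2) F, g * a * g⁻¹ = JJ F := by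
  have hd := det2 a
  have ht : a 0 0 + a 1 1 = 0 := ha
  have h11 : a 1 1 = - a 0 0 := by linear_combination ht
  rw [h11] at hd
  have h10 : a 1 0 ≠ 0 := by
    intro h
    apply hns (a 0 0)
    rw [h] at hd
    linear_combination -hd
  obtain ⟨u, v, huv⟩ := sum_sq h3 hns (a 1 0)
  obtain ⟨g2, hg2⟩ : ∃ g2 : F, g2 = v := ⟨_, rfl⟩
  obtain ⟨g3, hg3⟩ : ∃ g3 : F, g3 = (u - a 0 0 * v) / a 1 0 := ⟨_, rfl⟩
  have hg3' : a 1 0 * g3 = u - a 0 0 * v := by rw [hg3]; field_simp
  have hdet : (g2 * a 0 0 + g3 * a 1 0) * g3 - (g2 * a 0 1 + g3 * a 1 1) * g2 = 1 := by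
    apply mul_left_cancel₀ h10
    rw [h11, hg2]
    linear_combination (a 1 0 * g3 + u - a 0 0 * v + 2 * a 0 0 * v) * hg3' + huv + v * v * hd
  refine ⟨mk (g2 * a 0 0 + g3 * a 1 0) (g2 * a 0 1 + g3 * a 1 1) g2 g3 hdet, ?_⟩
  rw [mul_inv_eq_iff_eq_mul]
  apply ext2 <;> simp only [mulE, JJ, mk00, mk01, mk10, mk11]
  · rw [h11]; linear_combination (-g2) * hd
  · rw [h11]; linear_combination (-g3) * hd
  · ring
  · ring

/-- the quaternion norm form -/
theorem norm4 (a b h : SpecialLinearGroup (Fin 2) F) (g : SpecialLinearGroup (Fin 2) F) (hg : g * a * g⁻¹ = JJ F)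
    (hab : a * b = nI F * (b * a)) (hb : tr2 b = 0) (h2 : (2 : F) ≠ 0) :
    tr2 h * tr2 h + tr2 (h * a) * tr2 (h * a) + tr2 (h * b) * tr2 (h * b) + tr2 (h * (a * b)) * tr2 (h * (a * b)) = 4 := by
  obtain ⟨b', hb'⟩ : ∃ b', b' = g * b * g⁻¹ := ⟨_, rfl⟩
  obtain ⟨h', hh'⟩ : ∃ h', h' = g * h * g⁻¹ := ⟨_, rfl⟩
  have e1 : tr2 h = tr2 h' := by rw [hh', tr2_conj]
  have e2 : tr2 (h * a) = tr2 (h' * JJ F) := by
    rw [← tr2_conj g (h * a), hh', ← hg]; congr 1; group
  have e3 : tr2 (h * b) = tr2 (h' * b') := by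
    rw [← tr2_conj g (h * b), hh', hb']; congr 1; group
  have e4 : tr2 (h * (a * b)) = tr2 (h' * (JJ F * b')) := by
    rw [← tr2_conj g (h * (a * b)), hh', hb', ← hg]; congr 1; group
  have e5 : tr2 b' = 0 := by rw [hb', tr2_conj, hb]
  have e6 : tr2 (JJ F * b') = 0 := by
    have hJb : JJ F * b' = nI F * (b' * JJ F) := by
      rw [hb', ← hg]
      calc g * a * g⁻¹ * (g * b * g⁻¹) = g * (a * b) * g⁻¹ := by group
        _ = (g * nI F) * (b * a) * g⁻¹ := by rw [hab]; group
        _ = _ := by rw [nI_comm]; group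
    have := congrArg tr2 hJb
    rw [tr2_nI, tr2_mul_comm b'] at this
    apply (mul_eq_zero.1 (?_ : 2 * tr2 (JJ F * b') = 0)).resolve_left h2
    linear_combination this
  rw [e1, e2, e3, e4]
  have dh := det2 h'
  have db := det2 b'
  unfold tr2 at *
  simp only [mulE, JJ, mk00, mk01, mk10, mk11] at *
  have b11 : b' 1 1 = - b' 0 0 := by linear_combination e5
  have b01 : b' 0 1 = b' 1 0 := by linear_combination e6
  rw [b11, b01] at db ⊢
  linear_combination (-((h' 0 0 - h' 1 1) * (h' 0 0 - h' 1 1) + (h' 0 1 + h' 1 0) * (h' 0 1 + h' 1 0))) * db + 4 * dh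

/-- membership in the prime field -/
def P3 (x : F) : Prop := x = 0 ∨ x = 1 ∨ x = -1

include h3 in
theorem P3_add {x y : F} (hx : P3 x) (hy : P3 y) : P3 (x + y) := by
  have e : (1 : F) + 1 = -1 := by linear_combination h3
  have e' : (-1 : F) + -1 = 1 := by linear_combination -h3
  rcases hx with rfl | rfl | rfl <;> rcases hy with rfl | rfl | rfl
  · left; ring
  · right; left; ring
  · right; right; ring
  · right; left; ring
  · right; right; exact e
  · left; ring
  · right; right; ring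
  · left; ring
  · right; left; exact e'

theorem P3_neg {x : F} (hx : P3 x) : P3 (-x) := by
  rcases hx with rfl | rfl | rfl
  · left; ring
  · right; right; rfl
  · right; left; ring

include h3 hns in
theorem P3_sqrt {x : F} (hx : P3 (x * x)) : P3 x := by
  rcases hx with h | h | h
  · left; exact mul_self_eq_zero.1 h
  · have : (x - 1) * (x + 1) = 0 := by linear_combination h
    rcases mul_eq_zero.1 this with h' | h'
    · right; left; linear_combination h'
    · right; right; linear_combination h'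
  · exact absurd h (hns x)

include h3 hns in
/-- the structure of solvable subgroups of `SL₂(F)`, `char F = 3`, `-1` not a square -/
theorem struct3 (K : Subgroup (SpecialLinearGroup (Fin 2) F)) (hK : ¬ K ≤ Zs F) (hs : Group.IsSolvable K) :
    (∃ h : SpecialLinearGroup (Fin 2) F, ∀ g ∈ K, (h * g * h⁻¹) 1 0 = 0) ∨
    (∃ a : SpecialLinearGroup (Fin 2) F, (a 0 0 + a 1 1) * (a 0 0 + a 1 1) ≠ 4 ∧ ∀ g ∈ K, g * a = a * g ∨ g * a = a⁻¹ * g) ∨
    (∀ g ∈ K, P3 (tr2 g)) := by
  have h2 : (2 : F) ≠ 0 := two_ne h3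
  have h4 : (4 : F) ≠ 0 := by
    intro h
    have : (1 : F) = 0 := by linear_combination h - h3
    exact one_ne_zero this
  obtain ⟨A, hA, hA1, hA2⟩ := ex_A K (Zs F) hs hK
  have hA3 : ∀ a ∈ A, ∀ b ∈ A, a * b = b * a ∨ a * b = nI F * (b * a) := fun a ha b hb => comm_cases (hA2 a ha b hb)
  by_cases hu : ∃ u ∈ A, u ∉ Zs F ∧ (u 0 0 + u 1 1) * (u 0 0 + u 1 1) = 4
  · left
    obtain ⟨u, huA, huZ, hu4⟩ := hu
    have ht0 : u 0 0 + u 1 1 ≠ 0 := by
      intro h
      rw [h, mul_zero] at hu4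
      exact h4 hu4.symm
    obtain ⟨h, hh⟩ := tri u ((u 0 0 + u 1 1) / 2) (by field_simp; linear_combination -hu4)
    refine ⟨h, ?_⟩
    intro g hg
    obtain ⟨v, hv⟩ : ∃ v, v = h * u * h⁻¹ := ⟨_, rfl⟩
    rw [← hv] at hh
    have hvt : v 0 0 + v 1 1 = u 0 0 + u 1 1 := by rw [hv, tr_conj2]
    have hv00 : v 0 0 = v 1 1 := by
      have hd := det2 v
      rw [hh, mul_zero, sub_zero] at hd
      have : (v 0 0 - v 1 1) * (v 0 0 - v 1 1) = 0 := by
        linear_combination (v 0 0 + v 1 1 + u 0 0 + u 1 1) * hvt + hu4 - 4 * hd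
      linear_combination mul_self_eq_zero.1 this
    have hv01 : v 0 1 ≠ 0 := by
      intro h01
      apply huZ
      rw [← Zs_conj (h := h), ← hv]
      exact ⟨h01, hh, hv00⟩
    apply cb2 v _ hh hv00 hv01
    have hc : (g * u * g⁻¹) * u = u * (g * u * g⁻¹) := by
      refine (hA3 _ (hA g hg u huA) u huA).resolve_right ?_
      intro he
      exact ht0 (anti_tr h2 he).2
    calc (h * g * h⁻¹ * v * (h * g * h⁻¹)⁻¹) * v = h * ((g * u * g⁻¹) * u) * h⁻¹ := by
          rw [hv]; group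
      _ = _ := by rw [hc, hv]; group
  · push Not at hu
    right
    by_cases hc : ∃ a ∈ A, a ∉ Zs F ∧ ∀ g ∈ K, (g * a * g⁻¹) * a = a * (g * a * g⁻¹)
    · left
      obtain ⟨a, haA, haZ, hac⟩ := hc
      refine ⟨a, hu a haA haZ, ?_⟩
      intro g hg
      rcases twoconj' h2 _ _ (hu a haA haZ) (tr_conj2 g _) (hac g hg) with h | h
      · left
        rwa [mul_inv_eq_iff_eq_mul] at h
      · right
        rwa [mul_inv_eq_iff_eq_mul] at h
    · right
      push Not at hc
      obtain ⟨a, haA, haZ⟩ := hA1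
      obtain ⟨g0, hg0, hne⟩ := hc a haA haZ
      obtain ⟨b, hb⟩ : ∃ b, b = g0 * a * g0⁻¹ := ⟨_, rfl⟩
      rw [← hb] at hne
      have hbA : b ∈ A := by rw [hb]; exact hA g0 hg0 a haA
      have hab : a * b = nI F * (b * a) := (hA3 a haA b hbA).resolve_left (fun h => hne h.symm)
      have hta : tr2 a = 0 := (anti_tr h2 hab).1
      have htb : tr2 b = 0 := (anti_tr h2 hab).2
      have htc : tr2 (a * b) = 0 := by
        have := congrArg tr2 hab
        rw [tr2_nI, tr2_mul_comm b] at this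
        apply (mul_eq_zero.1 (?_ : 2 * tr2 (a * b) = 0)).resolve_left h2
        linear_combination this
      obtain ⟨g, hg⟩ := toJ h3 hns a hta
      intro h hh
      have key : ∀ x ∈ A, tr2 x = 0 → P3 (tr2 (h * x * h⁻¹ * x⁻¹)) := by
        intro x hx htx
        have htx' : x 0 0 + x 1 1 = 0 := htx
        rcases hA3 _ (hA h hh x hx) x hx with e | e
        · rcases twoconj' h2 x _ (by rw [htx', zero_mul]; exact h4.symm) (tr_conj2 h x) e with e' | e'
          · rw [e', mul_inv_cancel, tr2_one]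
            right; right; linear_combination h3
          · rw [e', tr2_sq, tr2_inv, htx]
            right; left; linear_combination -h3
        · left
          have e1 : h * x * h⁻¹ * x⁻¹ = nI F * (x⁻¹ * (h * x * h⁻¹)) := by
            rw [mul_inv_eq_iff_eq_mul]
            calc h * x * h⁻¹ = x⁻¹ * (x * (h * x * h⁻¹)) := by group
              _ = x⁻¹ * (nI F * (nI F * (x * (h * x * h⁻¹)))) := by rw [← mul_assoc (nI F) (nI F), nI_sq, one_mul]
              _ = x⁻¹ * (nI F * ((h * x * h⁻¹) * x)) := by rw [e]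
              _ = (x⁻¹ * nI F) * ((h * x * h⁻¹) * x) := by group
              _ = _ := by rw [nI_comm]; group
          have := congrArg tr2 e1
          rw [tr2_nI, tr2_mul_comm x⁻¹] at this
          apply (mul_eq_zero.1 (?_ : 2 * tr2 (h * x * h⁻¹ * x⁻¹) = 0)).resolve_left h2
          linear_combination this
      have k1 := key a haA hta
      have k2 := key b hbA htb
      have k3 := key (a * b) (A.mul_mem haA hbA) htc
      rw [fricke h a hta] at k1
      rw [fricke h b htb] at k2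
      rw [fricke h (a * b) htc] at k3
      have hN := norm4 a b h g hg hab htb h2
      have hsum := P3_add h3 (Or.inr (Or.inl rfl) : P3 (1 : F)) (P3_neg (P3_add h3 (P3_add h3 k1 k2) k3))
      apply P3_sqrt h3 hns
      convert hsum using 1
      linear_combination hN + (tr2 h * tr2 h - 1) * h3

end Three

end CfsgLib.Sw
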