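import Cfsg.Agent.LibSw2

set_option autoImplicit false

/-! Solubilizers in `SL₂(3^p)`, III: criteria (seat helper26). -/

namespace CfsgLib.Sw

open Matrix CfsgLib.Sv

theorem solv_le {G : Type*} [Group G] {K K' : Subgroup G} (h : K ≤ K') (hs : Group.IsSolvable K') : Group.IsSolvable K :=
  Group.isSolvable_of_isSolvable_injective (f := Subgroup.inclusion h) (Subgroup.inclusion_injective h)

theorem conj_back {G : Type*} [Group G] {g a b : G} (h : g * a * g⁻¹ = b) : a = g⁻¹ * b * g := by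
  rw [← h]; group

theorem comm_cent {G : Type*} [Group G] (a g h : G) (hg : g ∈ Dh a) (hh : h ∈ Dh a) :
    (g * h * g⁻¹ * h⁻¹) * a = a * (g * h * g⁻¹ * h⁻¹) := by
  have e1 : g * h * g⁻¹ * h⁻¹ * a * (g * h * g⁻¹ * h⁻¹)⁻¹ = g * (h * (g⁻¹ * (h⁻¹ * a * h) * g) * h⁻¹) * g⁻¹ := by group
  have h1 := hg
  have h2 := hh
  rw [mem_Dh] at h1 h2
  have h3 := (Dh a).inv_mem hg
  have h4 := (Dh a).inv_mem hh
  rw [mem_Dh, inv_inv] at h3 h4
  have inv1 : ∀ k : G, k * a⁻¹ * k⁻¹ = (k * a * k⁻¹)⁻¹ := by intro k; group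
  have inv2 : ∀ k : G, k⁻¹ * a⁻¹ * k = (k⁻¹ * a * k)⁻¹ := by intro k; group
  have f : ∀ k : G, k * a * k⁻¹ = a → k⁻¹ * a * k = a := by
    intro k hk
    have := conj_back hk
    exact this.symm
  have f' : ∀ k : G, k * a * k⁻¹ = a⁻¹ → k⁻¹ * a * k = a⁻¹ := by
    intro k hk
    have := conj_back hk
    rw [inv2] at this
    exact inv_eq_iff_eq_inv.1 this.symm
  have key : g * h * g⁻¹ * h⁻¹ * a * (g * h * g⁻¹ * h⁻¹)⁻¹ = a := by
    rw [e1]
    rcases h1 with h1 | h1 <;> rcases h2 with h2 | h2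
    · rw [f h h2, f g h1, h2, h1]
    · rw [f' h h2, inv2, f g h1, inv1, h2, inv_inv, h1]
    · rw [f h h2, f' g h1, inv1, h2, inv1, h1, inv_inv]
    · rw [f' h h2, inv2, f' g h1, inv_inv, h2, inv1, h1, inv_inv]
  rw [mul_inv_eq_iff_eq_mul] at key
  exact key

theorem Dh_conj {G : Type*} [Group G] (x a g : G) : x * g * x⁻¹ ∈ Dh (x * a * x⁻¹) ↔ g ∈ Dh a := by
  rw [mem_Dh, mem_Dh]
  have e1 : x * g * x⁻¹ * (x * a * x⁻¹) * (x * g * x⁻¹)⁻¹ = x * (g * a * g⁻¹) * x⁻¹ := by group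
  have e2 : (x * a * x⁻¹)⁻¹ = x * a⁻¹ * x⁻¹ := by group
  rw [e1, e2]
  constructor
  · rintro (h | h)
    · left; exact mul_left_cancel (mul_right_cancel h)
    · right; exact mul_left_cancel (mul_right_cancel h)
  · rintro (h | h)
    · left; rw [h]
    · right; rw [h]

variable {F : Type*} [Field F]

theorem sq_nI (w : SpecialLinearGroup (Fin 2) F) (hw : tr2 w = 0) : w * w = nI F := by
  have hd := det2 w
  unfold tr2 at hw
  apply ext2 <;> simp only [mulE]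
  · change _ = (-1 : F)
    linear_combination w 0 0 * hw - hd
  · change _ = (0 : F)
    linear_combination w 0 1 * hw
  · change _ = (0 : F)
    linear_combination w 1 0 * hw
  · change _ = (-1 : F)
    linear_combination w 1 1 * hw - hd

theorem inv_nI (w : SpecialLinearGroup (Fin 2) F) (hw : tr2 w = 0) : w⁻¹ = nI F * w := by
  apply inv_eq_of_mul_eq_one_right
  rw [← mul_assoc, nI_comm, mul_assoc, sq_nI w hw, nI_sq]

theorem anti_of_tr (a b : SpecialLinearGroup (Fin 2) F) (ha : tr2 a = 0) (hb : tr2 b = 0) (hab : tr2 (a * b) = 0) :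
    a * b = nI F * (b * a) := by
  unfold tr2 at *
  simp only [mulE] at hab
  have a11 : a 1 1 = - a 0 0 := by linear_combination ha
  have b11 : b 1 1 = - b 0 0 := by linear_combination hb
  rw [a11, b11] at hab
  apply ext2 <;> rw [nIE] <;> simp only [mulE, a11, b11]
  · linear_combination hab
  · ring
  · ring
  · linear_combination hab

theorem ch (x : SpecialLinearGroup (Fin 2) F) (i j : Fin 2) : (x * x) i j = tr2 x * x i j - (1 : SpecialLinearGroup (Fin 2) F) i j := by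
  have hd := det2 x
  unfold tr2
  rw [mulE]
  fin_cases i <;> fin_cases j
  · change x 0 0 * x 0 0 + x 0 1 * x 1 0 = (x 0 0 + x 1 1) * x 0 0 - 1
    linear_combination -hd
  · change x 0 0 * x 0 1 + x 0 1 * x 1 1 = (x 0 0 + x 1 1) * x 0 1 - 0
    ring
  · change x 1 0 * x 0 0 + x 1 1 * x 1 0 = (x 0 0 + x 1 1) * x 1 0 - 0
    ring
  · change x 1 0 * x 0 1 + x 1 1 * x 1 1 = (x 0 0 + x 1 1) * x 1 1 - 1
    linear_combination -hd

theorem cube (x : SpecialLinearGroup (Fin 2) F) (hx : tr2 x * tr2 x = 1) : x * x * x ∈ Zs F := by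
  refine ⟨?_, ?_, ?_⟩
  · rw [mulE, ch, ch, oneE00, oneE01]
    have h := ch x 0 1
    rw [mulE, oneE01] at h
    linear_combination tr2 x * h + x 0 1 * hx
  · rw [mulE, ch, ch, oneE10, oneE11]
    have h := ch x 1 0
    rw [mulE, oneE10] at h
    linear_combination tr2 x * h + x 1 0 * hx
  · rw [mulE (x * x) x 0 0, mulE (x * x) x 1 1, ch x 0 0, ch x 0 1, ch x 1 0, ch x 1 1, oneE00, oneE01, oneE10, oneE11]
    have h := ch x 0 0
    have h' := ch x 1 1
    rw [mulE, oneE00] at h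
    rw [mulE, oneE11] at h'
    linear_combination tr2 x * h - tr2 x * h' + (x 0 0 - x 1 1) * hx

theorem nI_ne (h2 : (2 : F) ≠ 0) : nI F ≠ 1 := by
  intro h
  have := congrArg (fun z : SpecialLinearGroup (Fin 2) F => z 0 0) h
  change (-1 : F) = 1 at this
  apply h2
  linear_combination -this

theorem not_Zs {a : SpecialLinearGroup (Fin 2) F} (ha : a ∉ Zs F) : ¬ (a 0 1 = 0 ∧ a 1 0 = 0 ∧ a 0 0 - a 1 1 = 0) := by
  rintro ⟨h1, h2, h3⟩
  exact ha ⟨h1, h2, by linear_combination h3⟩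

theorem Zs_comm {z : SpecialLinearGroup (Fin 2) F} (hz : z ∈ Zs F) (g : SpecialLinearGroup (Fin 2) F) : z * g = g * z := by
  rcases Zs_cases hz with h | h
  · rw [h, one_mul, mul_one]
  · rw [h, nI_comm]

theorem solvA4 (h3 : (3 : F) = 0) (h2 : (2 : F) ≠ 0) (W X : SpecialLinearGroup (Fin 2) F) (hW : tr2 W = 0) (hX : tr2 X * tr2 X = 1)
    (hWX : tr2 (W * X) * tr2 (W * X) = 1) : Group.IsSolvable (Subgroup.closure ({W, X} : Set (SpecialLinearGroup (Fin 2) F))) := by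
  obtain ⟨W1, hW1⟩ : ∃ W1, W1 = X * W * X⁻¹ := ⟨_, rfl⟩
  obtain ⟨W2, hW2⟩ : ∃ W2, W2 = X * W1 * X⁻¹ := ⟨_, rfl⟩
  have h33 : X * W2 * X⁻¹ = W := by
    have e : X * W2 * X⁻¹ = (X * X * X) * W * (X * X * X)⁻¹ := by rw [hW2, hW1]; group
    rw [e, Zs_comm (cube X hX), mul_inv_cancel_right]
  have t1 : tr2 W1 = 0 := by rw [hW1, tr2_conj, hW]
  have t2 : tr2 W2 = 0 := by rw [hW2, tr2_conj, t1]
  have t01 : tr2 (W * W1) = 0 := by
    have := fricke X W hW
    rw [← hW1, inv_nI W hW, ← mul_assoc, nI_comm, mul_assoc, tr2_nI, tr2_mul_comm, tr2_mul_comm X W] at this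
    linear_combination -this - hX - hWX
  have t12 : tr2 (W1 * W2) = 0 := by
    have e : W1 * W2 = X * (W * W1) * X⁻¹ := by rw [hW2, hW1]; group
    rw [e, tr2_conj, t01]
  have t20 : tr2 (W2 * W) = 0 := by
    have e : W2 * W = X * (W1 * W2) * X⁻¹ := by
      calc W2 * W = (X * W1 * X⁻¹) * (X * W2 * X⁻¹) := by rw [h33, ← hW2]
        _ = _ := by group
    rw [e, tr2_conj, t12]
  have a01 := anti_of_tr W W1 hW t1 t01
  have a02 := anti_of_tr W W2 hW t2 (by rw [tr2_mul_comm]; exact t20)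
  -- the quaternion group
  obtain ⟨Q, hQ⟩ : ∃ Q, Q = Dh W ⊓ Dh W1 ⊓ Dh W2 := ⟨_, rfl⟩
  have hQs : Group.IsSolvable Q := by
    apply solv_of Q (Zs F)
    · intro a ha b hb
      exact Zs_comm ha b
    · intro a ha b hb
      by_contra hz
      rw [hQ, Subgroup.mem_inf, Subgroup.mem_inf] at ha hb
      have c1 := comm_cent W a b ha.1.1 hb.1.1
      have c2 := comm_cent W1 a b ha.1.2 hb.1.2
      have := cent_comm _ (not_Zs hz) W W1 c1.symm c2.symm
      rw [a01] at this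
      apply nI_ne h2
      exact mul_right_cancel (this.trans (one_mul _).symm)
  have hWQ : W ∈ Q := by
    rw [hQ, Subgroup.mem_inf, Subgroup.mem_inf]
    refine ⟨⟨?_, ?_⟩, ?_⟩
    · left; group
    · right
      rw [a01, inv_nI W1 t1]; group
    · right
      rw [a02, inv_nI W2 t2]; group
  have hXQ : ∀ g ∈ Q, X * g * X⁻¹ ∈ Q := by
    intro g hg
    rw [hQ, Subgroup.mem_inf, Subgroup.mem_inf] at hg ⊢
    refine ⟨⟨?_, ?_⟩, ?_⟩
    · rw [← h33, Dh_conj]; exact hg.2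
    · rw [hW1, Dh_conj]; exact hg.1.1
    · rw [hW2, Dh_conj]; exact hg.1.2
  have hXQ' : ∀ g ∈ Q, X⁻¹ * g * X ∈ Q := by
    intro g hg
    have e : g = X * (X⁻¹ * g * X) * X⁻¹ := by group
    rw [hQ, Subgroup.mem_inf, Subgroup.mem_inf] at hg ⊢
    obtain ⟨⟨g1, g2⟩, g3⟩ := hg
    refine ⟨⟨?_, ?_⟩, ?_⟩
    · rw [← Dh_conj X, ← e, ← hW1]; exact g2
    · rw [← Dh_conj X, ← e, ← hW2]; exact g3
    · rw [← Dh_conj X, ← e, h33]; exact g1
  apply solv_le _ (solv_norm Q hQs X hXQ hXQ')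
  rw [Subgroup.closure_le]
  intro z hz
  rcases hz with rfl | hz
  · exact Subgroup.subset_closure (Or.inl hWQ)
  · rw [Set.mem_singleton_iff] at hz
    rw [hz]
    exact Subgroup.subset_closure (Or.inr rfl)

end CfsgLib.Sw
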