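import Cfsg.Agent.LibSw3

set_option autoImplicit false

/-! Solubilizers in `SL₂(3^p)`, IV: criteria (seat helper26). -/

namespace CfsgLib.Sw

open Matrix CfsgLib.Sv

variable {F : Type*} [Field F] [Fintype F] (h3 : (3 : F) = 0) (hns : ∀ c : F, c * c ≠ -1)

theorem x_mem {G : Type*} [Group G] (x y : G) : x ∈ Subgroup.closure ({x, y} : Set G) := Subgroup.subset_closure (by simp)
theorem y_mem {G : Type*} [Group G] (x y : G) : y ∈ Subgroup.closure ({x, y} : Set G) := Subgroup.subset_closure (by simp)

theorem cl_le {G : Type*} [Group G] {x y : G} {K : Subgroup G} (hx : x ∈ K) (hy : y ∈ K) : Subgroup.closure ({x, y} : Set G) ≤ K := by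
  rw [Subgroup.closure_le]
  intro z hz
  rcases hz with rfl | hz
  · exact hx
  · rw [Set.mem_singleton_iff] at hz
    rw [hz]; exact hy

theorem a_nZ {a : SpecialLinearGroup (Fin 2) F} (ha : (a 0 0 + a 1 1) * (a 0 0 + a 1 1) ≠ 4) : a ∉ Zs F := by
  rintro ⟨h1, h2, h3⟩
  apply ha
  have hd := det2 a
  rw [h1, zero_mul, sub_zero, h3] at hd
  rw [h3]
  linear_combination 4 * hd

include h3 hns in
theorem crit1' (x : SpecialLinearGroup (Fin 2) F) (h10 : x 1 0 = 0) (h00 : x 0 0 = 1) (h11 : x 1 1 = 1)
    (h01 : x 0 1 ≠ 0) (y : SpecialLinearGroup (Fin 2) F) :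
    Group.IsSolvable (Subgroup.closure ({x, y} : Set (SpecialLinearGroup (Fin 2) F))) ↔
      (y 1 0 = 0 ∨ ((x 0 1 * y 1 0 = 1 ∨ x 0 1 * y 1 0 = -1) ∧ P3 (tr2 y))) := by
  have h2 := two_ne h3
  have hxm := x_mem x y
  have hym := y_mem x y
  have hxt : tr2 x = 2 := by unfold tr2; rw [h00, h11]; ring
  have hxy : tr2 (x * y) = tr2 y + x 0 1 * y 1 0 := by
    unfold tr2
    simp only [mulE, h00, h11, h10]; ring
  constructor
  · intro hs
    have hne : ¬ Subgroup.closure ({x, y} : Set (SpecialLinearGroup (Fin 2) F)) ≤ Zs F := by
      intro h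
      exact h01 (h hxm).1
    rcases struct3 h3 hns _ hne hs with ⟨h, hh⟩ | ⟨a, ha, hh⟩ | hh
    · have e1 := hh x hxm
      have e2 := hh y hym
      have hd := det2 h
      rw [conj10, h10, h00, h11] at e1
      have e3 : x 0 1 * (h 1 0 * h 1 0) = 0 := by linear_combination -e1
      have e4 : h 1 0 = 0 := mul_self_eq_zero.1 ((mul_eq_zero.1 e3).resolve_left h01)
      rw [conj10, e4] at e2
      rw [e4, mul_zero, sub_zero] at hd
      have h1 : h 1 1 ≠ 0 := right_ne_zero_of_mul (a := h 0 0) (by rw [hd]; exact one_ne_zero)
      left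
      apply (mul_eq_zero.1 (?_ : (h 1 1 * h 1 1) * y 1 0 = 0)).resolve_left (mul_ne_zero h1 h1)
      linear_combination e2
    · exfalso
      rcases hh x hxm with hx | hx
      · rw [comm_iff] at hx
        obtain ⟨c1, c2, -⟩ := hx
        rw [h00, h11, sub_self, mul_zero] at c2
        rw [h10, mul_zero] at c1
        have d1 := (mul_eq_zero.1 c2).resolve_left h01
        have d2 := (mul_eq_zero.1 c1).resolve_left h01
        have hd := det2 a
        rw [d2, mul_zero, sub_zero] at hd
        apply ha
        linear_combination (a 0 0 - a 1 1) * d1 + 4 * hd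
      · have := inv_tr' a x (a_nZ ha) hx
        rw [h00, h11] at this
        apply h2
        linear_combination this
    · have k1 := hh y hym
      have k2 := hh _ (Subgroup.mul_mem _ hxm hym)
      rw [hxy] at k2
      have k3 := P3_add h3 k2 (P3_neg k1)
      rw [add_neg_cancel_comm] at k3
      rcases k3 with k | k | k
      · left
        exact (mul_eq_zero.1 k).resolve_left h01
      · right; exact ⟨Or.inl k, k1⟩
      · right; exact ⟨Or.inr k, k1⟩
  · rintro (h | ⟨hs, ht⟩)
    · exact borel_cl x y h10 h
    · have hss : (x 0 1 * y 1 0) * (x 0 1 * y 1 0) = 1 := by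
        rcases hs with h | h <;> rw [h] <;> ring
      have hxx : tr2 x * tr2 x = 1 := by rw [hxt]; linear_combination h3
      have hxxy : tr2 (x * (x * y)) = tr2 y + 2 * (x 0 1 * y 1 0) := by
        unfold tr2
        simp only [mulE, h00, h11, h10]; ring
      have hxxxy : tr2 (x * (x * (x * y))) = tr2 y + 3 * (x 0 1 * y 1 0) := by
        unfold tr2
        simp only [mulE, h00, h11, h10]; ring
      -- one of `y, x y, x x y` has trace zero
      have hcases : tr2 y = 0 ∨ tr2 y = -(x 0 1 * y 1 0) ∨ tr2 y = x 0 1 * y 1 0 := by
        rcases ht with h | h | h <;> rcases hs with h' | h' <;> rw [h, h']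
        · left; rfl
        · left; rfl
        · right; right; rfl
        · right; left; ring
        · right; left; rfl
        · right; right; rfl
      rcases hcases with h | h | h
      · apply solv_le _ (solvA4 h3 h2 y x h hxx (by rw [tr2_mul_comm, hxy, h, zero_add, hss]))
        exact cl_le (y_mem _ _) (x_mem _ _)
      · apply solv_le _ (solvA4 h3 h2 (x * y) x (by rw [hxy, h]; ring) hxx (by
          rw [tr2_mul_comm, hxxy, h]; linear_combination hss))
        apply cl_le (y_mem _ _)
        have e : y = x⁻¹ * (x * y) := by group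
        rw [e]
        exact Subgroup.mul_mem _ (Subgroup.inv_mem _ (y_mem _ _)) (by rw [← e]; exact x_mem _ _)
      · apply solv_le _ (solvA4 h3 h2 (x * (x * y)) x (by rw [hxxy, h]; linear_combination (x 0 1 * y 1 0) * h3) hxx (by
          rw [tr2_mul_comm, hxxxy, h]; linear_combination hss + ((x 0 1 * y 1 0) * (x 0 1 * y 1 0) * 5) * h3))
        apply cl_le (y_mem _ _)
        have e : y = x⁻¹ * (x⁻¹ * (x * (x * y))) := by group
        rw [e]
        exact Subgroup.mul_mem _ (Subgroup.inv_mem _ (y_mem _ _)) (Subgroup.mul_mem _ (Subgroup.inv_mem _ (y_mem _ _))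
          (by rw [← e]; exact x_mem _ _))

include h3 hns in
theorem crit2' (x : SpecialLinearGroup (Fin 2) F) (h10 : x 1 0 = 0) (h01 : x 0 1 = 0) (hne : x 0 0 - x 1 1 ≠ 0)
    (y : SpecialLinearGroup (Fin 2) F) :
    Group.IsSolvable (Subgroup.closure ({x, y} : Set (SpecialLinearGroup (Fin 2) F))) ↔
      (y 1 0 = 0 ∨ y 0 1 = 0 ∨ (y 0 0 = 0 ∧ y 1 1 = 0)) := by
  have h2 := two_ne h3
  have hxm := x_mem x y
  have hym := y_mem x y
  have hdx := det2 x
  rw [h10, mul_zero, sub_zero] at hdx
  constructor
  · intro hs
    have hne' : ¬ Subgroup.closure ({x, y} : Set (SpecialLinearGroup (Fin 2) F)) ≤ Zs F := by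
      intro h
      apply hne
      rw [(h hxm).2.2, sub_self]
    rcases struct3 h3 hns _ hne' hs with ⟨h, hh⟩ | ⟨a, ha, hh⟩ | hh
    · have e1 := hh x hxm
      have e2 := hh y hym
      have hd := det2 h
      rw [conj10, h10, h01] at e1
      have e3 : (x 0 0 - x 1 1) * (h 1 0 * h 1 1) = 0 := by linear_combination e1
      rcases mul_eq_zero.1 ((mul_eq_zero.1 e3).resolve_left hne) with e4 | e4
      · rw [conj10, e4] at e2
        rw [e4, mul_zero, sub_zero] at hd
        have h1 : h 1 1 ≠ 0 := right_ne_zero_of_mul (a := h 0 0) (by rw [hd]; exact one_ne_zero)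
        left
        apply (mul_eq_zero.1 (?_ : (h 1 1 * h 1 1) * y 1 0 = 0)).resolve_left (mul_ne_zero h1 h1)
        linear_combination e2
      · rw [conj10, e4] at e2
        rw [e4, mul_zero, zero_sub] at hd
        have h1 : h 1 0 ≠ 0 := by
          intro h'
          rw [h', mul_zero, neg_zero] at hd
          exact zero_ne_one hd
        right; left
        apply (mul_eq_zero.1 (?_ : (h 1 0 * h 1 0) * y 0 1 = 0)).resolve_left (mul_ne_zero h1 h1)
        linear_combination -e2
    · right
      have hx1 : x * a = a * x := by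
        refine (hh x hxm).resolve_right ?_
        intro hc
        have h4 := inv_tr' a x (a_nZ ha) hc
        apply hns (x 0 0)
        linear_combination x 0 0 * h4 - hdx
      rw [comm_iff] at hx1
      obtain ⟨-, c2, c3⟩ := hx1
      rw [h01, zero_mul] at c2
      rw [h10, zero_mul] at c3
      have a01 : a 0 1 = 0 := (mul_eq_zero.1 c2.symm).resolve_right hne
      have a10 : a 1 0 = 0 := (mul_eq_zero.1 c3.symm).resolve_right hne
      have ha' : a 0 0 - a 1 1 ≠ 0 := by
        intro h'
        exact a_nZ ha ⟨a01, a10, by linear_combination h'⟩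
      rcases hh y hym with hy | hy
      · left
        rw [comm_iff] at hy
        obtain ⟨-, d2, -⟩ := hy
        rw [a01, zero_mul] at d2
        exact (mul_eq_zero.1 d2).resolve_right ha'
      · right
        have e00 := congrArg (fun z : SpecialLinearGroup (Fin 2) F => z 0 0) hy
        have e11 := congrArg (fun z : SpecialLinearGroup (Fin 2) F => z 1 1) hy
        simp only [mulE, inv00, inv01, inv10, inv11, a01, a10] at e00 e11
        constructor
        · apply (mul_eq_zero.1 (?_ : y 0 0 * (a 0 0 - a 1 1) = 0)).resolve_right ha'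
          linear_combination e00
        · apply (mul_eq_zero.1 (?_ : y 1 1 * (a 0 0 - a 1 1) = 0)).resolve_right ha'
          linear_combination -e11
    · exfalso
      have hx := hh x hxm
      unfold tr2 at hx
      rcases hx with h | h | h
      · apply hns (x 0 0)
        linear_combination x 0 0 * h - hdx
      · apply hne
        have : (x 0 0 + 1) * (x 0 0 + 1) = 0 := by
          linear_combination x 0 0 * h - hdx + x 0 0 * h3
        have e := mul_self_eq_zero.1 this
        linear_combination 2 * e - h - h3
      · apply hne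
        have : (x 0 0 - 1) * (x 0 0 - 1) = 0 := by
          linear_combination x 0 0 * h - hdx - x 0 0 * h3
        have e := mul_self_eq_zero.1 this
        linear_combination 2 * e - h + h3
  · rintro (h | h | ⟨h, h'⟩)
    · exact borel_cl x y h10 h
    · exact borel_cl' x y h01 h
    · apply solv_cl x
      · apply cent_comm
        rintro ⟨-, -, h3⟩
        exact hne h3
      · left; group
      · right
        have hd := det2 y
        rw [h, zero_mul, zero_sub] at hd
        apply ext2 <;> simp only [mulE, inv00, inv01, inv10, inv11, h, h', h01, h10]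
        · linear_combination x 1 1 * hd
        · ring
        · ring
        · linear_combination x 0 0 * hd

include h3 hns in
theorem crit3' (x : SpecialLinearGroup (Fin 2) F) (h11 : x 1 1 = x 0 0) (h01 : x 0 1 = - x 1 0) (h10 : x 1 0 ≠ 0) (h00 : x 0 0 ≠ 0)
    (y : SpecialLinearGroup (Fin 2) F) :
    Group.IsSolvable (Subgroup.closure ({x, y} : Set (SpecialLinearGroup (Fin 2) F))) ↔
      ((y 1 1 = y 0 0 ∧ y 0 1 = - y 1 0) ∨ (y 1 1 = - y 0 0 ∧ y 0 1 = y 1 0)) := by
  have h2 := two_ne h3
  have hxm := x_mem x y
  have hym := y_mem x y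
  have hdx := det2 x
  rw [h11, h01] at hdx
  constructor
  · intro hs
    have hne' : ¬ Subgroup.closure ({x, y} : Set (SpecialLinearGroup (Fin 2) F)) ≤ Zs F := by
      intro h
      exact h10 (h hxm).2.1
    rcases struct3 h3 hns _ hne' hs with ⟨h, hh⟩ | ⟨a, ha, hh⟩ | hh
    · exfalso
      have e1 := hh x hxm
      have hd := det2 h
      rw [conj10, h11, h01] at e1
      have e3 : x 1 0 * (h 1 0 * h 1 0 + h 1 1 * h 1 1) = 0 := by linear_combination e1
      have e4 := sq_sum_ne hns ((mul_eq_zero.1 e3).resolve_left h10)
      rw [e4.1, e4.2] at hd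
      apply one_ne_zero (α := F)
      linear_combination -hd
    · have hx1 : x * a = a * x := by
        refine (hh x hxm).resolve_right ?_
        intro hc
        have h4 := inv_tr' a x (a_nZ ha) hc
        rw [h11] at h4
        apply mul_ne_zero h2 h00
        linear_combination h4
      rw [comm_iff] at hx1
      obtain ⟨c1, c2, -⟩ := hx1
      rw [h01] at c1 c2
      rw [h11, sub_self, mul_zero] at c2
      have a11 : a 0 0 - a 1 1 = 0 := (mul_eq_zero.1 c2).resolve_left (neg_ne_zero.2 h10)
      have a01 : a 0 1 = - a 1 0 := by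
        apply mul_right_cancel₀ h10
        linear_combination -c1
      have a10 : a 1 0 ≠ 0 := by
        intro h'
        exact a_nZ ha ⟨by rw [a01, h', neg_zero], h', by linear_combination a11⟩
      rcases hh y hym with hy | hy
      · left
        rw [comm_iff] at hy
        obtain ⟨d1, d2, -⟩ := hy
        rw [a01] at d1 d2
        rw [a11, mul_zero] at d2
        constructor
        · have := (mul_eq_zero.1 d2.symm).resolve_left (neg_ne_zero.2 a10)
          linear_combination -this
        · apply mul_right_cancel₀ a10
          linear_combination d1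
      · right
        have e00 := congrArg (fun z : SpecialLinearGroup (Fin 2) F => z 0 0) hy
        have e01 := congrArg (fun z : SpecialLinearGroup (Fin 2) F => z 0 1) hy
        have a11' : a 1 1 = a 0 0 := by linear_combination -a11
        simp only [mulE, inv00, inv01, inv10, inv11, a01, a11'] at e00 e01
        constructor
        · apply mul_left_cancel₀ a10
          linear_combination -e01
        · apply mul_right_cancel₀ a10
          linear_combination e00
    · exfalso
      have hx := hh x hxm
      unfold tr2 at hx
      rw [h11] at hx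
      rcases hx with h | h | h
      · apply mul_ne_zero h2 h00
        linear_combination h
      · apply h10
        apply mul_self_eq_zero.1
        linear_combination hdx - (x 0 0 + x 0 0 + 1) * h + x 0 0 * x 0 0 * h3
      · apply h10
        apply mul_self_eq_zero.1
        linear_combination hdx - (x 0 0 + x 0 0 - 1) * h + x 0 0 * x 0 0 * h3
  · have hcc := cent_comm x (by rintro ⟨-, h', -⟩; exact h10 h')
    rintro (⟨h, h'⟩ | ⟨h, h'⟩)
    · apply solv_cl x _ _ hcc
      · left; group
      · left
        rw [mul_inv_eq_iff_eq_mul, comm_iff, h, h', h11, h01]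
        exact ⟨by ring, by ring, by ring⟩
    · apply solv_cl x _ _ hcc
      · left; group
      · right
        rw [mul_inv_eq_iff_eq_mul]
        apply ext2 <;> simp only [mulE, inv00, inv01, inv10, inv11, h, h', h01, h11] <;> ring

include h3 hns in
theorem crit4' (x : SpecialLinearGroup (Fin 2) F) (hx : tr2 x = 0) (y : SpecialLinearGroup (Fin 2) F) :
    Group.IsSolvable (Subgroup.closure ({x, y} : Set (SpecialLinearGroup (Fin 2) F))) ↔
      (tr2 y = 0 ∨ tr2 (x * y) = 0 ∨ y * x = x * y ∨ (tr2 y * tr2 y = 1 ∧ tr2 (x * y) * tr2 (x * y) = 1)) := by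
  have h2 := two_ne h3
  have hxm := x_mem x y
  have hym := y_mem x y
  have hdx := det2 x
  have hxi := inv_nI x hx
  have hxx := sq_nI x hx
  have hxZ : x ∉ Zs F := by
    rintro ⟨h1, -, h3⟩
    rw [h1, zero_mul, sub_zero] at hdx
    unfold tr2 at hx
    apply hns (x 0 0)
    linear_combination x 0 0 * hx - hdx
  have hcc := cent_comm x (not_Zs hxZ)
  have hx' : x 0 0 + x 1 1 = 0 := hx
  constructor
  · intro hs
    have hne' : ¬ Subgroup.closure ({x, y} : Set (SpecialLinearGroup (Fin 2) F)) ≤ Zs F := by
      intro h
      exact hxZ (h hxm)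
    rcases struct3 h3 hns _ hne' hs with ⟨h, hh⟩ | ⟨a, ha, hh⟩ | hh
    · exfalso
      have e1 := hh x hxm
      have e2 := det2 (h * x * h⁻¹)
      have e3 := tr_conj2 h x
      rw [e1, mul_zero, sub_zero] at e2
      apply hns ((h * x * h⁻¹) 0 0)
      linear_combination (h * x * h⁻¹) 0 0 * e3 - e2 + (h * x * h⁻¹) 0 0 * hx'
    · rcases hh y hym with hy | hy
      · right
        rcases hh x hxm with hx1 | hx1
        · right; left
          exact cent_comm a (not_Zs (a_nZ ha)) y x hy hx1
        · left
          have e : (x * y) * a = a⁻¹ * (x * y) := by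
            rw [mul_assoc, hy, ← mul_assoc, hx1, mul_assoc]
          exact inv_tr' a _ (a_nZ ha) e
      · left
        exact inv_tr' a y (a_nZ ha) hy
    · have sq : ∀ z : F, P3 z → z = 0 ∨ z * z = 1 := by
        rintro z (h | h | h)
        · left; exact h
        · right; rw [h]; ring
        · right; rw [h]; ring
      rcases sq _ (hh y hym) with k | k
      · left; exact k
      · rcases sq _ (hh _ (Subgroup.mul_mem _ hxm hym)) with k' | k'
        · right; left; exact k'
        · right; right; right; exact ⟨k, k'⟩
  · intro hcase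
    by_cases hcom : y * x = x * y
    · apply solv_cl x _ _ hcc
      · left; group
      · left; rw [hcom]; group
    · rcases hcase with h | h | h | ⟨h, h'⟩
      · have hyi := inv_nI y h
        have hyy := sq_nI y h
        have hnz : x * y ∉ Zs F := by
          intro hz
          apply hcom
          have e : y = x⁻¹ * (x * y) := by group
          rcases Zs_cases hz with h' | h'
          · rw [e, h']; group
          · rw [e, h', nI_comm]
            calc nI F * x⁻¹ * x = x * (nI F * x⁻¹) := by
                  rw [← mul_assoc x, nI_comm, mul_assoc, mul_assoc, inv_mul_cancel, mul_inv_cancel]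
              _ = _ := rfl
        apply solv_cl (x * y) _ _ (cent_comm _ (not_Zs hnz))
        · right
          rw [_root_.mul_inv_rev, hxi, hyi]
          calc x * (x * y) * (nI F * x) = (x * x) * y * (nI F * x) := by group
            _ = _ := by rw [hxx]
        · right
          rw [_root_.mul_inv_rev, hxi, hyi]
          calc y * (x * y) * (nI F * y) = y * x * ((y * nI F) * y) := by group
            _ = y * x * (nI F * nI F) := by rw [nI_comm, mul_assoc (nI F), hyy]
            _ = (nI F * nI F) * (y * x) := by rw [nI_sq, mul_one, one_mul]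
            _ = nI F * ((nI F * y) * x) := by group
            _ = nI F * ((y * nI F) * x) := by rw [nI_comm]
            _ = _ := by group
      · have hyZ : y ∉ Zs F := by
          intro hz
          exact hcom (Zs_comm hz x)
        have hxy := sq_nI (x * y) h
        apply solv_cl y _ _ (cent_comm _ (not_Zs hyZ))
        · right
          rw [hxi]
          apply eq_inv_of_mul_eq_one_left
          calc x * y * (nI F * x) * y = (x * y * nI F) * (x * y) := by group
            _ = nI F * ((x * y) * (x * y)) := by rw [nI_comm]; group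
            _ = 1 := by rw [hxy, nI_sq]
        · left; group
      · exact absurd h hcom
      · exact solvA4 h3 h2 x y hx h h'

end CfsgLib.Sw
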