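import Cfsg.Agent.LibSw4

set_option autoImplicit false

/-! Solubilizers in `SL₂(3^p)`, V: counting (seat helper26). -/

namespace CfsgLib.Sw

open Matrix CfsgLib.Sv

variable {F : Type*} [Field F] [Fintype F] (h3 : (3 : F) = 0) (hns : ∀ c : F, c * c ≠ -1)

theorem card_R0 (c τ : F) (hc : c ≠ 0) : Nat.card {y : SpecialLinearGroup (Fin 2) F // y 1 0 = c ∧ tr2 y = τ} = Nat.card F := by
  apply card_par (fun a : F => mk a ((a * (τ - a) - 1) / c) c (τ - a) (by field_simp; ring))
  · intro a b h
    exact congrArg (fun z : SpecialLinearGroup (Fin 2) F => z 0 0) h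
  · intro y
    constructor
    · rintro ⟨h1, h2⟩
      refine ⟨y 0 0, ?_⟩
      unfold tr2 at h2
      have hd := det2 y
      apply ext2
      · rw [mk00]
      · rw [mk01, div_eq_iff hc, ← h1, ← h2]; linear_combination hd
      · rw [mk10, h1]
      · rw [mk11, ← h2]; ring
    · rintro ⟨a, rfl⟩
      unfold tr2
      rw [mk10, mk00, mk11]
      exact ⟨rfl, by ring⟩

include h3 in
theorem card_R (c : F) (hc : c ≠ 0) : Nat.card {y : SpecialLinearGroup (Fin 2) F // (y 1 0 = c ∧ tr2 y = 0) ∨
    ((y 1 0 = c ∧ tr2 y = 1) ∨ (y 1 0 = c ∧ tr2 y = -1))} = 3 * Nat.card F := by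
  have h2 := two_ne h3
  rw [card_or, card_or, card_R0 c _ hc, card_R0 c _ hc, card_R0 c _ hc]
  · ring
  · rintro y ⟨-, h⟩ ⟨-, h'⟩
    rw [h] at h'
    apply h2
    linear_combination h'
  · rintro y ⟨-, h⟩ (⟨-, h'⟩ | ⟨-, h'⟩)
    · rw [h] at h'
      exact zero_ne_one h'
    · rw [h] at h'
      exact one_ne_zero (neg_eq_zero.1 h'.symm)

include h3 hns in
theorem card1s (x : SpecialLinearGroup (Fin 2) F) (h10 : x 1 0 = 0) (h00 : x 0 0 = 1) (h11 : x 1 1 = 1)
    (h01 : x 0 1 ≠ 0) : Nat.card {y : SpecialLinearGroup (Fin 2) F // Group.IsSolvable (Subgroup.closure ({x, y} : Set (SpecialLinearGroup (Fin 2) F)))} =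
      Nat.card F * (Nat.card F + 5) := by
  have h2 := two_ne h3
  have hi : (x 0 1)⁻¹ ≠ 0 := inv_ne_zero h01
  have e : ∀ y : SpecialLinearGroup (Fin 2) F, Group.IsSolvable (Subgroup.closure ({x, y} : Set (SpecialLinearGroup (Fin 2) F))) ↔
      (y 1 0 = 0 ∨ (((y 1 0 = (x 0 1)⁻¹ ∧ tr2 y = 0) ∨ ((y 1 0 = (x 0 1)⁻¹ ∧ tr2 y = 1) ∨ (y 1 0 = (x 0 1)⁻¹ ∧ tr2 y = -1))) ∨
        ((y 1 0 = -(x 0 1)⁻¹ ∧ tr2 y = 0) ∨ ((y 1 0 = -(x 0 1)⁻¹ ∧ tr2 y = 1) ∨ (y 1 0 = -(x 0 1)⁻¹ ∧ tr2 y = -1))))) := by
    intro y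
    rw [crit1' h3 hns x h10 h00 h11 h01 y]
    have k1 : x 0 1 * y 1 0 = 1 ↔ y 1 0 = (x 0 1)⁻¹ := by
      constructor
      · intro h; field_simp; linear_combination h
      · intro h; rw [h]; field_simp
    have k2 : x 0 1 * y 1 0 = -1 ↔ y 1 0 = -(x 0 1)⁻¹ := by
      constructor
      · intro h; field_simp; linear_combination h
      · intro h; rw [h]; field_simp
    rw [k1, k2]
    unfold P3
    rw [or_and_right, and_or_left, and_or_left, and_or_left, and_or_left]
  rw [Nat.card_congr (Equiv.subtypeEquivRight e), card_or, card_or, card_bo, card_R h3 _ hi, card_R h3 _ (neg_ne_zero.2 hi)]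
  · have hq : 1 ≤ Nat.card F := Nat.card_pos
    obtain ⟨m, hm⟩ := Nat.exists_eq_add_of_le hq
    rw [hm, Nat.add_sub_cancel_left]
    ring
  · intro y h h'
    have k1 : y 1 0 = (x 0 1)⁻¹ := by rcases h with ⟨h, -⟩ | ⟨h, -⟩ | ⟨h, -⟩ <;> exact h
    have k2 : y 1 0 = -(x 0 1)⁻¹ := by rcases h' with ⟨h, -⟩ | ⟨h, -⟩ | ⟨h, -⟩ <;> exact h
    rw [k1] at k2
    apply mul_ne_zero h2 hi
    linear_combination k2
  · intro y h h'
    have k : y 1 0 = (x 0 1)⁻¹ ∨ y 1 0 = -(x 0 1)⁻¹ := by
      rcases h' with h' | h'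
      · left; rcases h' with ⟨h, -⟩ | ⟨h, -⟩ | ⟨h, -⟩ <;> exact h
      · right; rcases h' with ⟨h, -⟩ | ⟨h, -⟩ | ⟨h, -⟩ <;> exact h
    rw [h] at k
    rcases k with k | k
    · exact hi k.symm
    · exact hi (neg_eq_zero.1 k.symm)

include h3 hns in
theorem card2s (x : SpecialLinearGroup (Fin 2) F) (h10 : x 1 0 = 0) (h01 : x 0 1 = 0) (hne : x 0 0 - x 1 1 ≠ 0) :
    Nat.card {y : SpecialLinearGroup (Fin 2) F // Group.IsSolvable (Subgroup.closure ({x, y} : Set (SpecialLinearGroup (Fin 2) F)))} =
      2 * (Nat.card F * (Nat.card F - 1)) := by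
  have e : ∀ y : SpecialLinearGroup (Fin 2) F, Group.IsSolvable (Subgroup.closure ({x, y} : Set (SpecialLinearGroup (Fin 2) F))) ↔
      (y 1 0 = 0 ∨ (y 1 0 ≠ 0 ∧ y 1 1 = (y 0 0)⁻¹)) := by
    intro y
    rw [crit2' h3 hns x h10 h01 hne y]
    have hd := det2 y
    by_cases hy : y 1 0 = 0
    · simp [hy]
    · simp only [hy, false_or, ne_eq, not_false_eq_true, true_and]
      constructor
      · rintro (h | ⟨h, h'⟩)
        · rw [h, zero_mul, sub_zero] at hd
          exact (inv_eq_of_mul_eq_one_right hd).symm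
        · rw [h, h', _root_.inv_zero]
      · intro h
        by_cases h0 : y 0 0 = 0
        · right
          rw [h0, _root_.inv_zero] at h
          exact ⟨h0, h⟩
        · left
          rw [h, mul_inv_cancel₀ h0] at hd
          exact (mul_eq_zero.1 (by linear_combination -hd : y 0 1 * y 1 0 = 0)).resolve_right hy
  rw [Nat.card_congr (Equiv.subtypeEquivRight e), card_or, card_bo, card_phi (fun a _ => a⁻¹)]
  · ring
  · rintro y h ⟨h', -⟩
    exact h' h

include h3 hns in
theorem circ1 : Nat.card {w : F × F // w.1 * w.1 + w.2 * w.2 = 1} = Nat.card F + 1 := by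
  have h2 := two_ne h3
  have hm : ∀ m : F, 1 + m * m ≠ 0 := by
    intro m h
    apply hns m
    linear_combination h
  rw [card_par (fun o : Option F => match o with
    | none => ((-1 : F), (0 : F))
    | some m => ((1 - m * m) / (1 + m * m), (2 * m) / (1 + m * m)))]
  · rw [Finite.card_option]
  · rintro (_ | m) (_ | n) h
    · rfl
    · exfalso
      have h' := congrArg Prod.fst h
      simp only at h'
      rw [eq_div_iff (hm n)] at h'
      apply h2
      linear_combination -h'
    · exfalso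
      have h' := congrArg Prod.fst h
      simp only at h'
      rw [div_eq_iff (hm m)] at h'
      apply h2
      linear_combination h'
    · have h' := congrArg Prod.fst h
      have h'' := congrArg Prod.snd h
      simp only at h' h''
      rw [div_eq_div_iff (hm m) (hm n)] at h' h''
      have e1 : m * m = n * n := by
        apply mul_left_cancel₀ h2
        linear_combination -h'
      rw [e1] at h''
      have e2 := mul_right_cancel₀ (hm n) h''
      rw [mul_left_cancel₀ h2 e2]
  · rintro ⟨u, v⟩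
    simp only
    constructor
    · intro h
      by_cases hu : u = -1
      · refine ⟨none, ?_⟩
        subst hu
        have : v * v = 0 := by linear_combination h
        rw [mul_self_eq_zero.1 this]
      · have hu' : 1 + u ≠ 0 := by
          intro h'
          apply hu
          linear_combination h'
        refine ⟨some (v / (1 + u)), ?_⟩
        simp only
        have k1 : (1 + v / (1 + u) * (v / (1 + u))) * (1 + u) = 2 := by
          field_simp
          linear_combination h
        have hmm := hm (v / (1 + u))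
        rw [Prod.mk.injEq]
        constructor
        · rw [div_eq_iff hmm]
          apply mul_right_cancel₀ hu'
          rw [mul_assoc, k1]
          field_simp
          linear_combination -h
        · rw [div_eq_iff hmm]
          apply mul_right_cancel₀ hu'
          rw [mul_assoc v, k1]
          field_simp
    · rintro ⟨(_ | m), h⟩
      · simp only [Prod.mk.injEq] at h
        rw [← h.1, ← h.2]; ring
      · simp only [Prod.mk.injEq] at h
        rw [← h.1, ← h.2]
        have := hm m
        have h4 : 1 + m ^ 2 ≠ 0 := by rw [sq]; exact this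
        field_simp
        ring

include h3 hns in
theorem circm1 : Nat.card {w : F × F // w.1 * w.1 + w.2 * w.2 = -1} = Nat.card F + 1 := by
  have h2 := two_ne h3
  rw [← circ1 h3 hns]
  apply card_par (fun w : {w : F × F // w.1 * w.1 + w.2 * w.2 = 1} => (w.1.1 - w.1.2, w.1.1 + w.1.2))
  · rintro ⟨⟨u, v⟩, h⟩ ⟨⟨u', v'⟩, h'⟩ he
    simp only [Prod.mk.injEq] at he
    have e1 : u = u' := by
      apply mul_left_cancel₀ h2
      linear_combination he.1 + he.2
    have e2 : v = v' := by
      apply mul_left_cancel₀ h2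
      linear_combination he.2 - he.1
    subst e1 e2
    rfl
  · rintro ⟨s, t⟩
    simp only
    constructor
    · intro h
      refine ⟨⟨(-(s + t), -(t - s)), ?_⟩, ?_⟩
      · simp only
        linear_combination 2 * h - h3
      · simp only [Prod.mk.injEq]
        constructor
        · linear_combination (-s) * h3
        · linear_combination (-t) * h3
    · rintro ⟨⟨⟨u, v⟩, h⟩, he⟩
      simp only [Prod.mk.injEq] at he h
      rw [← he.1, ← he.2]
      linear_combination 2 * h + h3

include h3 hns in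
theorem cardC : Nat.card {y : SpecialLinearGroup (Fin 2) F // y 1 1 = y 0 0 ∧ y 0 1 = - y 1 0} = Nat.card F + 1 := by
  rw [← circ1 h3 hns]
  apply card_par (fun w : {w : F × F // w.1 * w.1 + w.2 * w.2 = 1} => mk w.1.1 (-w.1.2) w.1.2 w.1.1 (by linear_combination w.2))
  · rintro ⟨⟨u, v⟩, h⟩ ⟨⟨u', v'⟩, h'⟩ he
    have e1 := congrArg (fun z : SpecialLinearGroup (Fin 2) F => z 0 0) he
    have e2 := congrArg (fun z : SpecialLinearGroup (Fin 2) F => z 1 0) he
    simp only [mk00, mk10] at e1 e2
    subst e1 e2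
    rfl
  · intro y
    have hd := det2 y
    constructor
    · rintro ⟨h, h'⟩
      refine ⟨⟨(y 0 0, y 1 0), ?_⟩, ?_⟩
      · simp only
        rw [h, h'] at hd
        linear_combination hd
      · apply ext2
        · rw [mk00]
        · rw [mk01]; exact h'.symm
        · rw [mk10]
        · rw [mk11]; exact h.symm
    · rintro ⟨w, rfl⟩
      exact ⟨by rw [mk00, mk11], by rw [mk01, mk10]⟩

include h3 hns in
theorem cardAB : Nat.card {y : SpecialLinearGroup (Fin 2) F // y 1 1 = - y 0 0 ∧ y 0 1 = y 1 0} = Nat.card F + 1 := by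
  rw [← circm1 h3 hns]
  apply card_par (fun w : {w : F × F // w.1 * w.1 + w.2 * w.2 = -1} => mk w.1.1 w.1.2 w.1.2 (-w.1.1) (by linear_combination -w.2))
  · rintro ⟨⟨u, v⟩, h⟩ ⟨⟨u', v'⟩, h'⟩ he
    have e1 := congrArg (fun z : SpecialLinearGroup (Fin 2) F => z 0 0) he
    have e2 := congrArg (fun z : SpecialLinearGroup (Fin 2) F => z 1 0) he
    simp only [mk00, mk10] at e1 e2
    subst e1 e2
    rfl
  · intro y
    have hd := det2 y
    constructor
    · rintro ⟨h, h'⟩
      refine ⟨⟨(y 0 0, y 1 0), ?_⟩, ?_⟩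
      · simp only
        rw [h, h'] at hd
        linear_combination -hd
      · apply ext2
        · rw [mk00]
        · rw [mk01]; exact h'.symm
        · rw [mk10]
        · rw [mk11]; exact h.symm
    · rintro ⟨w, rfl⟩
      exact ⟨by rw [mk00, mk11], by rw [mk01, mk10]⟩

include h3 hns in
theorem card3s (x : SpecialLinearGroup (Fin 2) F) (h11 : x 1 1 = x 0 0) (h01 : x 0 1 = - x 1 0) (h10 : x 1 0 ≠ 0) (h00 : x 0 0 ≠ 0) :
    Nat.card {y : SpecialLinearGroup (Fin 2) F // Group.IsSolvable (Subgroup.closure ({x, y} : Set (SpecialLinearGroup (Fin 2) F)))} =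
      2 * (Nat.card F + 1) := by
  have h2 := two_ne h3
  rw [Nat.card_congr (Equiv.subtypeEquivRight (crit3' h3 hns x h11 h01 h10 h00)), card_or, cardC h3 hns, cardAB h3 hns]
  · ring
  · rintro y ⟨h, h'⟩ ⟨k, k'⟩
    have hd := det2 y
    have e1 : y 0 0 = 0 := by
      apply mul_left_cancel₀ h2
      linear_combination k - h
    have e2 : y 1 0 = 0 := by
      apply mul_left_cancel₀ h2
      linear_combination h' - k'
    rw [e1, e2] at hd
    apply one_ne_zero (α := F)
    linear_combination -hd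

include h3 hns in
theorem cardD (a b : F) (ha : a * a = 1) (hb : b * b = 1) :
    Nat.card {y : SpecialLinearGroup (Fin 2) F // y 0 0 + y 1 1 = a ∧ y 0 1 - y 1 0 = b} = Nat.card F + 1 := by
  rw [← circ1 h3 hns]
  apply card_par (fun w : {w : F × F // w.1 * w.1 + w.2 * w.2 = 1} => mk (w.1.1 - a) (w.1.2 + b + b) (w.1.2 + b) (a - (w.1.1 - a)) (by
    linear_combination -w.2 - 2 * ha - 2 * hb + (a * w.1.1 - b * w.1.2 - 2) * h3))
  · rintro ⟨⟨u, v⟩, h⟩ ⟨⟨u', v'⟩, h'⟩ he
    have e1 := congrArg (fun z : SpecialLinearGroup (Fin 2) F => z 0 0) he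
    have e2 := congrArg (fun z : SpecialLinearGroup (Fin 2) F => z 1 0) he
    simp only [mk00, mk10] at e1 e2
    have e1' : u = u' := by linear_combination e1
    have e2' : v = v' := by linear_combination e2
    subst e1' e2'
    rfl
  · intro y
    have hd := det2 y
    constructor
    · rintro ⟨h, h'⟩
      refine ⟨⟨(y 0 0 + a, y 1 0 - b), ?_⟩, ?_⟩
      · simp only
        have e1 : y 1 1 = a - y 0 0 := by linear_combination h
        have e2 : y 0 1 = y 1 0 + b := by linear_combination h'
        rw [e1, e2] at hd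
        linear_combination -hd + ha + hb + (a * y 0 0 - b * y 1 0) * h3
      · apply ext2
        · rw [mk00]; ring
        · rw [mk01]; linear_combination -h'
        · rw [mk10]; ring
        · rw [mk11]; linear_combination -h
    · rintro ⟨w, rfl⟩
      exact ⟨by rw [mk00, mk11]; ring, by rw [mk01, mk10]; ring⟩

end CfsgLib.Sw
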