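import Cfsg.Agent.LibSw5

set_option autoImplicit false

/-! Solubilizers in `SL₂(3^p)`, VI: involutions (seat helper26). -/

namespace CfsgLib.Sw

open Matrix CfsgLib.Sv

variable {F : Type*} [Field F] [Fintype F] (h3 : (3 : F) = 0) (hns : ∀ c : F, c * c ≠ -1)

theorem card_single {β : Type*} (a : β) : Nat.card {y : β // y = a} = 1 := by
  rw [Nat.card_eq_one_iff_unique]
  exact ⟨⟨fun x y => Subtype.ext (x.2.trans y.2.symm)⟩, ⟨⟨a, rfl⟩⟩⟩

theorem card_pair {β : Type*} [Finite β] {a b : β} (hab : a ≠ b) : Nat.card {y : β // y = a ∨ y = b} = 2 := by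
  rw [card_or, card_single, card_single]
  rintro y rfl h
  exact hab h

/-- trace zero -/
def pA (y : SpecialLinearGroup (Fin 2) F) : Prop := y 0 0 + y 1 1 = 0
/-- trace of the product with `J` zero -/
def pB (y : SpecialLinearGroup (Fin 2) F) : Prop := y 0 1 - y 1 0 = 0
/-- commuting with `J` -/
def pC (y : SpecialLinearGroup (Fin 2) F) : Prop := y 1 1 = y 0 0 ∧ y 0 1 = - y 1 0
/-- prescribed traces -/
def pD (a b : F) (y : SpecialLinearGroup (Fin 2) F) : Prop := y 0 0 + y 1 1 = a ∧ y 0 1 - y 1 0 = b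

theorem trJ (y : SpecialLinearGroup (Fin 2) F) : tr2 (JJ F * y) = y 0 1 - y 1 0 := by
  unfold tr2
  simp only [mulE, JJ, mk00, mk01, mk10, mk11]
  ring

theorem commJ (y : SpecialLinearGroup (Fin 2) F) : y * JJ F = JJ F * y ↔ pC y := by
  rw [comm_iff]
  unfold pC
  simp only [JJ, mk00, mk01, mk10, mk11]
  constructor
  · rintro ⟨h1, h2, -⟩
    exact ⟨by linear_combination -h2, by linear_combination h1⟩
  · rintro ⟨h1, h2⟩
    rw [h1, h2]
    exact ⟨by ring, by ring, by ring⟩

theorem sq_one {z : F} : z * z = 1 ↔ (z = 1 ∨ z = -1) := by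
  constructor
  · intro h
    have : (z - 1) * (z + 1) = 0 := by linear_combination h
    rcases mul_eq_zero.1 this with h' | h'
    · left; linear_combination h'
    · right; linear_combination h'
  · rintro (h | h) <;> rw [h] <;> ring

include h3 hns in
theorem e4 (y : SpecialLinearGroup (Fin 2) F) :
    Group.IsSolvable (Subgroup.closure ({JJ F, y} : Set (SpecialLinearGroup (Fin 2) F))) ↔
      (pA y ∨ ((pB y ∧ ¬ pA y) ∨ ((pC y ∧ ¬ (pA y ∨ pB y)) ∨ ((pD 1 1 y ∨ pD 1 (-1) y) ∨ (pD (-1) 1 y ∨ pD (-1) (-1) y))))) := by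
  rw [crit4' h3 hns (JJ F) (by unfold tr2; simp only [JJ, mk00, mk11]; ring) y, trJ, commJ, sq_one, sq_one]
  have hA : tr2 y = 0 ↔ pA y := Iff.rfl
  have hB : y 0 1 - y 1 0 = 0 ↔ pB y := Iff.rfl
  rw [hA, hB]
  have hD : ((tr2 y = 1 ∨ tr2 y = -1) ∧ (y 0 1 - y 1 0 = 1 ∨ y 0 1 - y 1 0 = -1)) ↔
      ((pD 1 1 y ∨ pD 1 (-1) y) ∨ (pD (-1) 1 y ∨ pD (-1) (-1) y)) := by
    unfold pD tr2
    rw [or_and_right, and_or_left, and_or_left]
  rw [hD]
  by_cases h1 : pA y
  · simp only [h1, true_or]
  · by_cases h2 : pB y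
    · simp only [h1, h2, not_false_eq_true, true_or, and_self, or_true]
    · simp only [h1, h2, not_false_eq_true, false_or, and_true, false_and, or_self]

include hns in
theorem cardA : Nat.card {y : SpecialLinearGroup (Fin 2) F // pA y} = (Nat.card F - 1) * Nat.card F := by
  rw [← card_phi (F := F) (fun a _ => -a)]
  apply Nat.card_congr
  apply Equiv.subtypeEquivRight
  intro y
  have hd := det2 y
  unfold pA
  constructor
  · intro h
    have h' : y 1 1 = - y 0 0 := by linear_combination h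
    refine ⟨?_, h'⟩
    intro h10
    apply hns (y 0 0)
    rw [h', h10] at hd
    linear_combination -hd
  · rintro ⟨-, h⟩
    rw [h]; ring

include hns in
theorem cardB : Nat.card {y : SpecialLinearGroup (Fin 2) F // pB y} = (Nat.card F - 1) * Nat.card F := by
  rw [← cardA hns]
  apply Nat.card_congr
  apply (Equiv.mulLeft (JJ F)).subtypeEquiv
  intro y
  rw [Equiv.coe_mulLeft]
  have : pA (JJ F * y) ↔ tr2 (JJ F * y) = 0 := Iff.rfl
  rw [this, trJ]
  rfl

include h3 hns in
theorem cardBA : Nat.card {y : SpecialLinearGroup (Fin 2) F // pB y ∧ pA y} = Nat.card F + 1 := by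
  rw [← cardAB h3 hns]
  apply Nat.card_congr
  apply Equiv.subtypeEquivRight
  intro y
  unfold pA pB
  constructor
  · rintro ⟨h, h'⟩
    exact ⟨by linear_combination h', by linear_combination h⟩
  · rintro ⟨h, h'⟩
    exact ⟨by linear_combination h', by linear_combination h⟩

include h3 hns in
theorem cardB' : Nat.card {y : SpecialLinearGroup (Fin 2) F // pB y ∧ ¬ pA y} + (Nat.card F + 1) = (Nat.card F - 1) * Nat.card F := by
  rw [← cardBA h3 hns, ← cardB hns, ← card_or]
  · apply Nat.card_congr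
    apply Equiv.subtypeEquivRight
    intro y
    tauto
  · rintro y ⟨-, h⟩ ⟨-, h'⟩
    exact h h'

include h3 in
theorem cardC4 : Nat.card {y : SpecialLinearGroup (Fin 2) F // pC y ∧ (pA y ∨ pB y)} = 4 := by
  have h2 := two_ne h3
  have e : ∀ y : SpecialLinearGroup (Fin 2) F, (pC y ∧ (pA y ∨ pB y)) ↔ ((y = JJ F ∨ y = nI F * JJ F) ∨ (y = 1 ∨ y = nI F)) := by
    intro y
    unfold pA pB pC
    have hd := det2 y
    constructor
    · rintro ⟨⟨h1, h2'⟩, h | h⟩
      · left
        rw [h1] at h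
        have h00 : y 0 0 = 0 := by
          apply mul_left_cancel₀ h2
          linear_combination h
        rw [h1, h00, h2'] at hd
        have : y 1 0 * y 1 0 = 1 := by linear_combination hd
        rcases sq_one.1 this with k | k
        · left
          apply ext2
          · rw [h00]; rfl
          · rw [h2', k]; rfl
          · rw [k]; rfl
          · rw [h1, h00]; rfl
        · right
          apply ext2 <;> rw [nIE]
          · rw [h00]; simp [JJ, mk00]
          · rw [h2', k]; simp [JJ, mk01]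
          · rw [k]; simp [JJ, mk10]
          · rw [h1, h00]; simp [JJ, mk11]
      · right
        rw [h2'] at h
        have h10 : y 1 0 = 0 := by
          apply mul_left_cancel₀ h2
          linear_combination -h
        apply Zs_cases
        exact ⟨by rw [h2', h10, neg_zero], h10, h1.symm⟩
    · rintro ((h | h) | (h | h)) <;> rw [h]
      · exact ⟨⟨rfl, rfl⟩, Or.inl (by simp [JJ, mk00, mk11])⟩
      · rw [nIE, nIE, nIE, nIE]
        refine ⟨⟨?_, ?_⟩, Or.inl ?_⟩ <;> simp [JJ, mk00, mk01, mk10, mk11]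
      · exact ⟨⟨rfl, by rw [oneE01, oneE10, neg_zero]⟩, Or.inr (by rw [oneE01, oneE10, sub_zero])⟩
      · refine ⟨⟨rfl, ?_⟩, Or.inr ?_⟩ <;> simp [nI, mk01, mk10]
  rw [Nat.card_congr (Equiv.subtypeEquivRight e), card_or, card_pair, card_pair]
  · intro h
    exact nI_ne h2 h.symm
  · intro h
    apply nI_ne h2
    have : nI F * JJ F = 1 * JJ F := by rw [one_mul]; exact h.symm
    exact mul_right_cancel this
  · rintro y (h | h) (h' | h')
    · rw [h] at h'
      have := congrArg (fun z : SpecialLinearGroup (Fin 2) F => z 1 0) h'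
      change (1 : F) = 0 at this
      exact one_ne_zero this
    · rw [h] at h'
      have := congrArg (fun z : SpecialLinearGroup (Fin 2) F => z 1 0) h'
      change (1 : F) = 0 at this
      exact one_ne_zero this
    · rw [h] at h'
      have := congrArg (fun z : SpecialLinearGroup (Fin 2) F => z 1 0) h'
      simp only [nIE] at this
      change -(1 : F) = 0 at this
      exact one_ne_zero (neg_eq_zero.1 this)
    · rw [h] at h'
      have := congrArg (fun z : SpecialLinearGroup (Fin 2) F => z 1 0) h'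
      simp only [nIE] at this
      change -(1 : F) = 0 at this
      exact one_ne_zero (neg_eq_zero.1 this)

include h3 hns in
theorem cardC' : Nat.card {y : SpecialLinearGroup (Fin 2) F // pC y ∧ ¬ (pA y ∨ pB y)} + 4 = Nat.card F + 1 := by
  rw [← cardC h3 hns, ← cardC4 (F := F) h3, ← card_or]
  · apply Nat.card_congr
    apply Equiv.subtypeEquivRight
    intro y
    have : (y 1 1 = y 0 0 ∧ y 0 1 = - y 1 0) ↔ pC y := Iff.rfl
    rw [this]
    tauto
  · rintro y ⟨-, h⟩ ⟨-, h'⟩
    exact h h'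

include h3 hns in
theorem cardD4 : Nat.card {y : SpecialLinearGroup (Fin 2) F // (pD 1 1 y ∨ pD 1 (-1) y) ∨ (pD (-1) 1 y ∨ pD (-1) (-1) y)} = 4 * (Nat.card F + 1) := by
  have h2 := two_ne h3
  have c1 : Nat.card {y : SpecialLinearGroup (Fin 2) F // pD 1 1 y} = Nat.card F + 1 := cardD h3 hns 1 1 (by ring) (by ring)
  have c2 : Nat.card {y : SpecialLinearGroup (Fin 2) F // pD 1 (-1) y} = Nat.card F + 1 := cardD h3 hns 1 (-1) (by ring) (by ring)
  have c3 : Nat.card {y : SpecialLinearGroup (Fin 2) F // pD (-1) 1 y} = Nat.card F + 1 := cardD h3 hns (-1) 1 (by ring) (by ring)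
  have c4 : Nat.card {y : SpecialLinearGroup (Fin 2) F // pD (-1) (-1) y} = Nat.card F + 1 := cardD h3 hns (-1) (-1) (by ring) (by ring)
  have hne : (1 : F) ≠ -1 := by
    intro h
    apply h2
    linear_combination h
  rw [card_or, card_or, card_or, c1, c2, c3, c4]
  · ring
  · rintro y ⟨-, h⟩ ⟨-, h'⟩
    exact hne (h.symm.trans h')
  · rintro y ⟨-, h⟩ ⟨-, h'⟩
    exact hne (h.symm.trans h')
  · rintro y (⟨h, -⟩ | ⟨h, -⟩) (⟨h', -⟩ | ⟨h', -⟩) <;> exact hne (h.symm.trans h')

include h3 hns in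
theorem card4s : Nat.card {y : SpecialLinearGroup (Fin 2) F // Group.IsSolvable (Subgroup.closure ({JJ F, y} : Set (SpecialLinearGroup (Fin 2) F)))} =
      2 * (Nat.card F * (Nat.card F + 1)) := by
  have h2 := two_ne h3
  rw [Nat.card_congr (Equiv.subtypeEquivRight (e4 h3 hns)), card_or, card_or, card_or, cardD4 h3 hns, cardA hns]
  · have kB := cardB' h3 hns
    have kC := cardC' h3 hns
    have hq : 1 ≤ Nat.card F := Nat.card_pos
    obtain ⟨m, hm⟩ := Nat.exists_eq_add_of_le hq
    rw [hm, Nat.add_sub_cancel_left] at kB ⊢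
    rw [hm] at kC
    generalize Nat.card {y : SpecialLinearGroup (Fin 2) F // pB y ∧ ¬ pA y} = b at *
    generalize Nat.card {y : SpecialLinearGroup (Fin 2) F // pC y ∧ ¬ (pA y ∨ pB y)} = c at *
    nlinarith
  · -- C' and D
    rintro y ⟨⟨h1, h2'⟩, -⟩ h
    have hd := det2 y
    rw [h1, h2'] at hd
    have key : ∀ a b : F, a * a = 1 → b * b = 1 → pD a b y → False := by
      rintro a b ha hb ⟨k, k'⟩
      rw [h1] at k
      rw [h2'] at k'
      apply one_ne_zero (α := F)
      have e1 : 4 * (y 0 0 * y 0 0 + y 1 0 * y 1 0) = a * a + b * b := by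
        rw [← k, ← k']; ring
      rw [ha, hb] at e1
      linear_combination h3 - e1 + 4 * hd
    rcases h with (h | h) | (h | h)
    · exact key _ _ (by ring) (by ring) h
    · exact key _ _ (by ring) (by ring) h
    · exact key _ _ (by ring) (by ring) h
    · exact key _ _ (by ring) (by ring) h
  · -- B' and rest
    rintro y ⟨hB, -⟩ (⟨-, h⟩ | h)
    · exact h (Or.inr hB)
    · have hB' : y 0 1 - y 1 0 = 0 := hB
      rcases h with (⟨-, h⟩ | ⟨-, h⟩) | (⟨-, h⟩ | ⟨-, h⟩) <;> rw [hB'] at h
      · exact zero_ne_one h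
      · exact one_ne_zero (neg_eq_zero.1 h.symm)
      · exact zero_ne_one h
      · exact one_ne_zero (neg_eq_zero.1 h.symm)
  · rintro y hA (⟨-, h⟩ | ⟨-, h⟩ | h)
    · exact h hA
    · exact h (Or.inl hA)
    · have hA' : y 0 0 + y 1 1 = 0 := hA
      rcases h with (⟨h, -⟩ | ⟨h, -⟩) | (⟨h, -⟩ | ⟨h, -⟩) <;> rw [hA'] at h
      · exact zero_ne_one h
      · exact zero_ne_one h
      · exact one_ne_zero (neg_eq_zero.1 h.symm)
      · exact one_ne_zero (neg_eq_zero.1 h.symm)

end CfsgLib.Sw
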