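import Cfsg.Agent.LibSw6

set_option autoImplicit false

/-! Solubilizers in `SL₂(3^p)`, VII: element types, transfer (seat helper26). -/

namespace CfsgLib.Sw

open Matrix CfsgLib.Sv

variable {F : Type*} [Field F] [Fintype F] (h3 : (3 : F) = 0) (hns : ∀ c : F, c * c ≠ -1)

theorem type2 (x : SpecialLinearGroup (Fin 2) F) (hx : x ∉ Zs F) (hxx : x * x ∈ Zs F) : tr2 x = 0 := by
  obtain ⟨h1, h2, h3⟩ := mem_Zs.1 hxx
  rw [ch, oneE01] at h1
  rw [ch, oneE10] at h2
  rw [ch, ch, oneE00, oneE11] at h3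
  by_contra ht
  apply hx
  refine ⟨?_, ?_, ?_⟩
  · exact (mul_eq_zero.1 (by linear_combination h1 : tr2 x * x 0 1 = 0)).resolve_left ht
  · exact (mul_eq_zero.1 (by linear_combination h2 : tr2 x * x 1 0 = 0)).resolve_left ht
  · have := (mul_eq_zero.1 (by linear_combination h3 : tr2 x * (x 0 0 - x 1 1) = 0)).resolve_left ht
    linear_combination this

theorem cubeE (x : SpecialLinearGroup (Fin 2) F) :
    (x * x * x) 0 1 = (tr2 x * tr2 x - 1) * x 0 1 ∧ (x * x * x) 1 0 = (tr2 x * tr2 x - 1) * x 1 0 ∧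
      (x * x * x) 0 0 - (x * x * x) 1 1 = (tr2 x * tr2 x - 1) * (x 0 0 - x 1 1) := by
  refine ⟨?_, ?_, ?_⟩
  · rw [mulE, ch, ch, oneE00, oneE01]
    have h := ch x 0 1
    rw [mulE, oneE01] at h
    linear_combination tr2 x * h
  · rw [mulE, ch, ch, oneE10, oneE11]
    have h := ch x 1 0
    rw [mulE, oneE10] at h
    linear_combination tr2 x * h
  · rw [mulE (x * x) x 0 0, mulE (x * x) x 1 1, ch x 0 0, ch x 0 1, ch x 1 0, ch x 1 1, oneE00, oneE01, oneE10, oneE11]
    have h := ch x 0 0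
    have h' := ch x 1 1
    rw [mulE, oneE00] at h
    rw [mulE, oneE11] at h'
    linear_combination tr2 x * h - tr2 x * h'

theorem type3 (x : SpecialLinearGroup (Fin 2) F) (hx : x ∉ Zs F) (hxx : x * x * x ∈ Zs F) : tr2 x * tr2 x = 1 := by
  obtain ⟨h1, h2, h3⟩ := mem_Zs.1 hxx
  obtain ⟨e1, e2, e3⟩ := cubeE x
  rw [h1] at e1
  rw [h2] at e2
  rw [h3, sub_self] at e3
  by_contra ht
  have ht' : tr2 x * tr2 x - 1 ≠ 0 := by
    intro h
    apply ht
    linear_combination h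
  apply hx
  refine ⟨?_, ?_, ?_⟩
  · exact (mul_eq_zero.1 e1.symm).resolve_left ht'
  · exact (mul_eq_zero.1 e2.symm).resolve_left ht'
  · have := (mul_eq_zero.1 e3.symm).resolve_left ht'
    linear_combination this

include h3 in
theorem unip_nf (x : SpecialLinearGroup (Fin 2) F) (hx : x ∉ Zs F) (ht : tr2 x = -1) :
    ∃ h : SpecialLinearGroup (Fin 2) F, (h * x * h⁻¹) 1 0 = 0 ∧ (h * x * h⁻¹) 0 0 = 1 ∧ (h * x * h⁻¹) 1 1 = 1 ∧ (h * x * h⁻¹) 0 1 ≠ 0 := by
  have ht' : x 0 0 + x 1 1 = -1 := ht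
  obtain ⟨h, hh⟩ := tri x 1 (by rw [ht']; linear_combination h3)
  have e1 := det2 (h * x * h⁻¹)
  have e2 := tr_conj2 h x
  rw [hh, mul_zero, sub_zero] at e1
  rw [ht'] at e2
  have e3 : ((h * x * h⁻¹) 0 0 - 1) * ((h * x * h⁻¹) 0 0 - 1) = 0 := by
    linear_combination (h * x * h⁻¹) 0 0 * e2 - e1 - (h * x * h⁻¹) 0 0 * h3 + h3 * 0
  have e4 : (h * x * h⁻¹) 0 0 = 1 := by linear_combination mul_self_eq_zero.1 e3
  have e5 : (h * x * h⁻¹) 1 1 = 1 := by
    rw [e4] at e2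
    linear_combination e2 - h3
  refine ⟨h, hh, e4, e5, ?_⟩
  intro h01
  apply hx
  rw [← Zs_conj (h := h)]
  exact ⟨h01, hh, e4.trans e5.symm⟩

include h3 hns in
theorem nonsplit_nf (x : SpecialLinearGroup (Fin 2) F) (hn : ∀ c : F, c * c + 1 ≠ c * (x 0 0 + x 1 1)) (ht : tr2 x ≠ 0) :
    ∃ g : SpecialLinearGroup (Fin 2) F, (g * x * g⁻¹) 1 1 = (g * x * g⁻¹) 0 0 ∧ (g * x * g⁻¹) 0 1 = - (g * x * g⁻¹) 1 0 ∧
      (g * x * g⁻¹) 1 0 ≠ 0 ∧ (g * x * g⁻¹) 0 0 ≠ 0 := by
  have hd := det2 x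
  obtain ⟨t, htt⟩ : ∃ t, t = x 0 0 + x 1 1 := ⟨_, rfl⟩
  have ht' : t ≠ 0 := by rw [htt]; exact ht
  rw [← htt] at hn
  obtain ⟨s, hs | hs⟩ := sq_or h3 hns (t * t - 1)
  · exfalso
    apply hn (-(t + s))
    linear_combination -hs + (t * t + t * s) * h3
  · have hs0 : s ≠ 0 := by
      rintro rfl
      apply hn (-t)
      linear_combination -hs + (t * t) * h3
    have hdet : ((x 0 0 + t) / s) * ((x 1 1 + t) / s) - (x 0 1 / s) * (x 1 0 / s) = 1 := by
      field_simp
      linear_combination hd - hs - t * htt + t * t * h3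
    obtain ⟨g, hg⟩ := toJ h3 hns (mk ((x 0 0 + t) / s) (x 0 1 / s) (x 1 0 / s) ((x 1 1 + t) / s) hdet) (by
      unfold tr2
      rw [mk00, mk11]
      field_simp
      linear_combination -htt + t * h3)
    have g00 := congrArg (fun z : SpecialLinearGroup (Fin 2) F => z 0 0) hg
    have g01 := congrArg (fun z : SpecialLinearGroup (Fin 2) F => z 0 1) hg
    have g10 := congrArg (fun z : SpecialLinearGroup (Fin 2) F => z 1 0) hg
    have g11 := congrArg (fun z : SpecialLinearGroup (Fin 2) F => z 1 1) hg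
    simp only [mulE, inv00, inv01, inv10, inv11, JJ, mk00, mk01, mk10, mk11] at g00 g01 g10 g11
    have hdg := det2 g
    field_simp at g00 g01 g10 g11
    have k00 : (g * x * g⁻¹) 0 0 = -t := by
      simp only [mulE, inv00, inv01, inv10, inv11]
      linear_combination g00 - t * hdg
    have k11 : (g * x * g⁻¹) 1 1 = -t := by
      simp only [mulE, inv00, inv01, inv10, inv11]
      linear_combination g11 - t * hdg
    have k01 : (g * x * g⁻¹) 0 1 = -s := by
      simp only [mulE, inv00, inv01, inv10, inv11]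
      linear_combination g01
    have k10 : (g * x * g⁻¹) 1 0 = s := by
      simp only [mulE, inv00, inv01, inv10, inv11]
      linear_combination g10
    exact ⟨g, by rw [k00, k11], by rw [k01, k10], by rw [k10]; exact hs0, by rw [k00]; exact neg_ne_zero.2 ht'⟩

include h3 hns in
theorem nonsplit_pow (x : SpecialLinearGroup (Fin 2) F) (hn : ∀ c : F, c * c + 1 ≠ c * (x 0 0 + x 1 1)) (ht : tr2 x ≠ 0) :
    x ^ (Nat.card F + 1) = 1 := by
  obtain ⟨g, h11, h01, -, -⟩ := nonsplit_nf h3 hns x hn ht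
  have hm : g * x * g⁻¹ ∈ Subgroup.centralizer {JJ F} := by
    rw [Subgroup.mem_centralizer_singleton_iff, commJ]
    exact ⟨h11, h01⟩
  have hc : Nat.card (Subgroup.centralizer {JJ F} : Subgroup (SpecialLinearGroup (Fin 2) F)) = Nat.card F + 1 := by
    rw [← cardC h3 hns]
    apply Nat.card_congr
    apply Equiv.subtypeEquivRight
    intro y
    rw [Subgroup.mem_centralizer_singleton_iff, commJ]
    rfl
  have h1 : (g * x * g⁻¹) ^ (Nat.card F + 1) = 1 := by
    rw [← hc]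
    exact orderOf_dvd_iff_pow_eq_one.1 (Subgroup.orderOf_dvd_natCard _ hm)
  rw [conj_pow'] at h1
  have : x ^ (Nat.card F + 1) = g⁻¹ * (g * x ^ (Nat.card F + 1) * g⁻¹) * g := by group
  rw [this, h1]; group

include h3 in
theorem card_dvd3 : ∃ k : ℕ, Nat.card F = 3 * k := by
  haveI : CharP F 3 := by
    have := CharP.cast_eq_zero_iff F (ringChar F) 3
    have h : ringChar F ∣ 3 := this.1 (by exact_mod_cast h3)
    rcases (Nat.dvd_prime Nat.prime_three).1 h with h' | h'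
    · exfalso
      have := CharP.cast_eq_zero F (ringChar F)
      rw [h'] at this
      push_cast at this
      exact one_ne_zero this
    · rw [← h']; exact ringChar.charP F
  obtain ⟨n, -, hn⟩ := FiniteField.card F 3
  rw [Nat.card_eq_fintype_card, hn]
  obtain ⟨m, hm⟩ := Nat.exists_eq_succ_of_ne_zero n.ne_zero
  rw [hm, pow_succ]
  exact ⟨3 ^ m, by ring⟩

include h3 in
theorem cube_card (x : SpecialLinearGroup (Fin 2) F) (hx : tr2 x * tr2 x = 1) : x ^ Nat.card F ∈ Zs F := by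
  obtain ⟨k, hk⟩ := card_dvd3 h3
  rw [hk, pow_mul]
  apply Subgroup.pow_mem
  have : x ^ 3 = x * x * x := by rw [pow_succ, sq]
  rw [this]
  exact cube x hx

include h3 hns in
theorem split_nf (x : SpecialLinearGroup (Fin 2) F) (hx : x ∉ Zs F) (hx2 : x * x ∉ Zs F) (hp : x ^ (Nat.card F - 1) ∈ Zs F) :
    ∃ h : SpecialLinearGroup (Fin 2) F, (h * x * h⁻¹) 1 0 = 0 ∧ (h * x * h⁻¹) 0 1 = 0 ∧ (h * x * h⁻¹) 0 0 - (h * x * h⁻¹) 1 1 ≠ 0 := by
  have hpos : 0 < Nat.card F := Nat.card_pos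
  have hc : ∃ c : F, c * c + 1 = c * (x 0 0 + x 1 1) := by
    by_contra hn
    push Not at hn
    have ht : tr2 x ≠ 0 := by
      intro h
      apply hx2
      rw [sq_nI x h]
      exact nI_mem_Zs
    have h1 := nonsplit_pow h3 hns x hn ht
    apply hx2
    have e : Nat.card F + 1 = (Nat.card F - 1) + 2 := by omega
    rw [e, pow_add, sq] at h1
    rw [← inv_eq_of_mul_eq_one_right h1]
    exact Subgroup.inv_mem _ hp
  obtain ⟨c, hc⟩ := hc
  obtain ⟨h, hh⟩ := tri x c hc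
  obtain ⟨u, hu⟩ : ∃ u, u = h * x * h⁻¹ := ⟨_, rfl⟩
  rw [← hu] at hh
  have hne : u 0 0 - u 1 1 ≠ 0 := by
    intro he
    have hd := det2 u
    rw [hh, mul_zero, sub_zero] at hd
    have ht : tr2 x * tr2 x = 1 := by
      rw [← tr2_conj h x, ← hu]
      unfold tr2
      linear_combination 4 * hd + (u 0 0 - u 1 1) * he + h3
    have h1 := cube_card h3 x ht
    apply hx
    have e : Nat.card F = (Nat.card F - 1) + 1 := by omega
    rw [e, pow_succ] at h1
    have e2 : x = (x ^ (Nat.card F - 1))⁻¹ * (x ^ (Nat.card F - 1) * x) := by group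
    rw [e2]
    exact Subgroup.mul_mem _ (Subgroup.inv_mem _ hp) h1
  obtain ⟨k, hk⟩ : ∃ k : SpecialLinearGroup (Fin 2) F, k = mk 1 (u 0 1 / (u 0 0 - u 1 1)) 0 1 (by ring) := ⟨_, rfl⟩
  have e : k * h * x * (k * h)⁻¹ = k * u * k⁻¹ := by rw [hu]; group
  refine ⟨k * h, ?_⟩
  rw [e]
  refine ⟨?_, ?_, ?_⟩
  · simp only [mulE, inv00, inv01, inv10, inv11, hk, mk00, mk01, mk10, mk11, hh]
    ring
  · simp only [mulE, inv00, inv01, inv10, inv11, hk, mk00, mk01, mk10, mk11, hh]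
    field_simp
    ring
  · simp only [mulE, inv00, inv01, inv10, inv11, hk, mk00, mk01, mk10, mk11, hh]
    intro h'
    apply hne
    linear_combination h'

include h3 hns in
theorem nonsplit_type' (x : SpecialLinearGroup (Fin 2) F) (hx : x ∉ Zs F) (hx2 : x * x ∉ Zs F) (hp : x ^ (Nat.card F + 1) ∈ Zs F) :
    (∀ c : F, c * c + 1 ≠ c * (x 0 0 + x 1 1)) ∧ tr2 x ≠ 0 := by
  refine ⟨?_, ?_⟩
  · intro c hc
    obtain ⟨h, hh⟩ := tri x c hc
    obtain ⟨u, hu⟩ : ∃ u, u = h * x * h⁻¹ := ⟨_, rfl⟩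
    rw [← hu] at hh
    have hup : u ^ (Nat.card F + 1) ∈ Zs F := by rw [hu, conj_pow', Zs_conj]; exact hp
    have e1 := (upper_pow u hh (Nat.card F + 1)).2
    have e2 : (u 0 0) ^ (Nat.card F + 1) = u 0 0 * u 0 0 := by
      rw [pow_succ, Nat.card_eq_fintype_card, FiniteField.pow_card]
    rw [e2] at e1
    have e3 : u 0 0 * u 0 0 = 1 := by
      rcases Zs_cases hup with h' | h'
      · rw [h'] at e1; exact e1.symm
      · rw [h'] at e1
        exact absurd e1.symm (hns _)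
    have hd := det2 u
    rw [hh, mul_zero, sub_zero] at hd
    have h0 : u 0 0 ≠ 0 := left_ne_zero_of_mul (b := u 1 1) (by rw [hd]; exact one_ne_zero)
    have e4 : u 1 1 = u 0 0 := mul_left_cancel₀ h0 (hd.trans e3.symm)
    have ht : tr2 x * tr2 x = 1 := by
      rw [← tr2_conj h x, ← hu]
      unfold tr2
      rw [e4]
      linear_combination 4 * e3 + h3
    have h1 := cube_card h3 x ht
    apply hx
    rw [pow_succ] at hp
    have e2 : x = (x ^ (Nat.card F))⁻¹ * (x ^ (Nat.card F) * x) := by group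
    rw [e2]
    exact Subgroup.mul_mem _ (Subgroup.inv_mem _ h1) hp
  · intro h
    apply hx2
    rw [sq_nI x h]
    exact nI_mem_Zs

end CfsgLib.Sw
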