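import Cfsg.Agent.LibSw7

set_option autoImplicit false

/-! Solubilizers in `PSL₂(3^p)`, VIII: transfer (seat helper26). -/

namespace CfsgLib.Sw

open Matrix CfsgLib.Sv

variable {F : Type*} [Field F]

theorem center_eq : Subgroup.center (SpecialLinearGroup (Fin 2) F) = Zs F := by
  ext z
  rw [Subgroup.mem_center_iff]
  constructor
  · intro h
    have h1 := h (mk 1 1 0 1 (by ring))
    have h2 := h (mk 1 0 1 1 (by ring))
    rw [comm_iff] at h1 h2
    simp only [mk00, mk01, mk10, mk11] at h1 h2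
    obtain ⟨a1, a2, -⟩ := h1
    obtain ⟨b1, -, -⟩ := h2
    exact ⟨by linear_combination -b1, by linear_combination a1, by linear_combination a2⟩
  · intro h g
    exact (Zs_comm h g).symm

theorem pi_one (x : SpecialLinearGroup (Fin 2) F) :
    (QuotientGroup.mk' (Subgroup.center (SpecialLinearGroup (Fin 2) F))) x = 1 ↔ x ∈ Zs F := by
  rw [QuotientGroup.mk'_apply, QuotientGroup.eq_one_iff, center_eq]

theorem solv_tr (x y : SpecialLinearGroup (Fin 2) F) :
    Group.IsSolvable (Subgroup.closure ({(QuotientGroup.mk' (Subgroup.center (SpecialLinearGroup (Fin 2) F))) x,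
      (QuotientGroup.mk' (Subgroup.center (SpecialLinearGroup (Fin 2) F))) y} : Set (Matrix.ProjectiveSpecialLinearGroup (Fin 2) F))) ↔
    Group.IsSolvable (Subgroup.closure ({x, y} : Set (SpecialLinearGroup (Fin 2) F))) := by
  have h1 : Subgroup.closure ({(QuotientGroup.mk' (Subgroup.center (SpecialLinearGroup (Fin 2) F))) x,
      (QuotientGroup.mk' (Subgroup.center (SpecialLinearGroup (Fin 2) F))) y} : Set (Matrix.ProjectiveSpecialLinearGroup (Fin 2) F)) =
      (Subgroup.closure ({x, y} : Set (SpecialLinearGroup (Fin 2) F))).map (QuotientGroup.mk' (Subgroup.center (SpecialLinearGroup (Fin 2) F))) := by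
    rw [MonoidHom.map_closure]
    congr 1
    simp only [Set.image_pair]
  rw [h1]
  obtain ⟨f, hf⟩ : ∃ f, f = (QuotientGroup.mk' (Subgroup.center (SpecialLinearGroup (Fin 2) F))).subgroupMap (Subgroup.closure ({x, y} : Set (SpecialLinearGroup (Fin 2) F))) := ⟨_, rfl⟩
  have hfs : Function.Surjective f := by rw [hf]; exact MonoidHom.subgroupMap_surjective _ _
  constructor
  · intro h
    haveI : Group.IsSolvable f.ker := by
      apply Group.isSolvable_of_comm
      rintro ⟨⟨a, ha⟩, hka⟩ ⟨⟨b, hb⟩, hkb⟩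
      have : a ∈ Zs F := by
        rw [← pi_one]
        rw [MonoidHom.mem_ker, hf] at hka
        exact congrArg Subtype.val hka
      apply Subtype.ext
      apply Subtype.ext
      exact Zs_comm this b
    exact Group.isSolvable_of_ker_le_range f.ker.subtype f (by rw [Subgroup.range_subtype])
  · intro h
    exact Group.isSolvable_of_surjective (f := f) hfs

theorem dbl [Fintype F] (h2 : (2 : F) ≠ 0) (x : SpecialLinearGroup (Fin 2) F) :
    Nat.card {y : SpecialLinearGroup (Fin 2) F // Group.IsSolvable (Subgroup.closure ({x, y} : Set (SpecialLinearGroup (Fin 2) F)))} =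
    2 * Nat.card {y : Matrix.ProjectiveSpecialLinearGroup (Fin 2) F // Group.IsSolvable (Subgroup.closure
      ({(QuotientGroup.mk' (Subgroup.center (SpecialLinearGroup (Fin 2) F))) x, y} : Set (Matrix.ProjectiveSpecialLinearGroup (Fin 2) F)))} := by
  have hsurj := QuotientGroup.mk'_surjective (Subgroup.center (SpecialLinearGroup (Fin 2) F))
  obtain ⟨s, hs⟩ := hsurj.hasRightInverse
  have hnI : (QuotientGroup.mk' (Subgroup.center (SpecialLinearGroup (Fin 2) F))) (nI F) = 1 := (pi_one _).2 nI_mem_Zs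
  obtain ⟨f, hf⟩ : ∃ f : {y : Matrix.ProjectiveSpecialLinearGroup (Fin 2) F // Group.IsSolvable (Subgroup.closure
      ({(QuotientGroup.mk' (Subgroup.center (SpecialLinearGroup (Fin 2) F))) x, y} : Set (Matrix.ProjectiveSpecialLinearGroup (Fin 2) F)))} × Bool →
      SpecialLinearGroup (Fin 2) F, f = fun w => if w.2 then nI F * s w.1.1 else s w.1.1 := ⟨_, rfl⟩
  have hpf : ∀ w, (QuotientGroup.mk' (Subgroup.center (SpecialLinearGroup (Fin 2) F))) (f w) = w.1.1 := by
    rintro ⟨w, b⟩
    rw [hf]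
    cases b
    · exact hs w.1
    · simp only [if_true]
      rw [map_mul, hnI, one_mul]
      exact hs w.1
  rw [card_par f]
  · rw [Nat.card_prod, Nat.card_eq_fintype_card (α := Bool), Fintype.card_bool, mul_comm]
  · rintro ⟨w, b⟩ ⟨w', b'⟩ h
    have h1 := hpf ⟨w, b⟩
    rw [h, hpf] at h1
    have h1' : w' = w := Subtype.ext h1
    subst h1'
    rw [hf] at h
    have hne : nI F * s w'.1 ≠ s w'.1 := by
      intro h'
      exact nI_ne h2 (mul_right_cancel (h'.trans (one_mul _).symm))
    cases b <;> cases b'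
    · rfl
    · exact absurd h.symm hne
    · exact absurd h hne
    · rfl
  · intro y
    rw [← solv_tr]
    constructor
    · intro h
      obtain ⟨z, hz⟩ : ∃ z, z = y * (s ((QuotientGroup.mk' (Subgroup.center (SpecialLinearGroup (Fin 2) F))) y))⁻¹ := ⟨_, rfl⟩
      have hzZ : z ∈ Zs F := by
        rw [← pi_one, hz, map_mul, map_inv, hs, mul_inv_cancel]
      rcases Zs_cases hzZ with h' | h'
      · refine ⟨(⟨_, h⟩, false), ?_⟩
        rw [hf]
        rw [h'] at hz
        exact (mul_inv_eq_one.1 hz.symm).symm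
      · refine ⟨(⟨_, h⟩, true), ?_⟩
        rw [hf]
        rw [h'] at hz
        simp only [if_true]
        rw [hz, inv_mul_cancel_right]
    · rintro ⟨w, rfl⟩
      rw [hpf]
      exact w.1.2

theorem result {F : Type*} [Field F] [Fintype F] (p : ℕ) (hp : p.Prime) (hodd : Odd p)
    (hF : Fintype.card F = 3 ^ p) (x : Matrix.ProjectiveSpecialLinearGroup (Fin 2) F) :
    (orderOf x = 2 → Nat.card {y : Matrix.ProjectiveSpecialLinearGroup (Fin 2) F // Group.IsSolvable ↥(Subgroup.closure ({x, y} : Set (Matrix.ProjectiveSpecialLinearGroup (Fin 2) F)))} = 3 ^ p * (3 ^ p + 1)) ∧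
    (orderOf x = 3 → 2 * Nat.card {y : Matrix.ProjectiveSpecialLinearGroup (Fin 2) F // Group.IsSolvable ↥(Subgroup.closure ({x, y} : Set (Matrix.ProjectiveSpecialLinearGroup (Fin 2) F)))} = 3 ^ p * (3 ^ p + 5)) ∧
    (x ≠ 1 → orderOf x ≠ 2 → orderOf x ∣ 3 ^ p - 1 → Nat.card {y : Matrix.ProjectiveSpecialLinearGroup (Fin 2) F // Group.IsSolvable ↥(Subgroup.closure ({x, y} : Set (Matrix.ProjectiveSpecialLinearGroup (Fin 2) F)))} = 3 ^ p * (3 ^ p - 1)) ∧
    (x ≠ 1 → orderOf x ≠ 2 → orderOf x ∣ 3 ^ p + 1 → Nat.card {y : Matrix.ProjectiveSpecialLinearGroup (Fin 2) F // Group.IsSolvable ↥(Subgroup.closure ({x, y} : Set (Matrix.ProjectiveSpecialLinearGroup (Fin 2) F)))} = 3 ^ p + 1) := by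
  have hN : Nat.card F = 3 ^ p := by rw [Nat.card_eq_fintype_card, hF]
  have h3 : (3 : F) = 0 := by
    have := FiniteField.cast_card_eq_zero F
    rw [hF] at this
    push_cast at this
    exact pow_eq_zero_iff hp.ne_zero |>.1 this
  have h2 := two_ne h3
  have hns : ∀ c : F, c * c ≠ -1 := by
    intro c hc
    have h1 : IsSquare (-1 : F) := ⟨c, hc.symm⟩
    rw [FiniteField.isSquare_neg_one_iff, hF] at h1
    apply h1
    obtain ⟨k, rfl⟩ := hodd
    rw [pow_succ, pow_mul, Nat.mul_mod, Nat.pow_mod]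
    norm_num
  obtain ⟨x, rfl⟩ := QuotientGroup.mk'_surjective _ x
  have hone := pi_one x
  have hsq : ∀ n : ℕ, orderOf ((QuotientGroup.mk' (Subgroup.center (SpecialLinearGroup (Fin 2) F))) x) ∣ n ↔ x ^ n ∈ Zs F := by
    intro n
    rw [orderOf_dvd_iff_pow_eq_one, ← map_pow, pi_one]
  have hn2 : orderOf ((QuotientGroup.mk' (Subgroup.center (SpecialLinearGroup (Fin 2) F))) x) ≠ 2 →
      (QuotientGroup.mk' (Subgroup.center (SpecialLinearGroup (Fin 2) F))) x ≠ 1 → x * x ∉ Zs F := by
    intro ho h1 hxx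
    rw [← sq, ← hsq] at hxx
    rcases (Nat.dvd_prime Nat.prime_two).1 hxx with h | h
    · exact h1 (orderOf_eq_one_iff.1 h)
    · exact ho h
  rw [← hN]
  refine ⟨?_, ?_, ?_, ?_⟩
  · intro ho
    have hx : x ∉ Zs F := by
      intro h
      rw [← hone] at h
      rw [h, orderOf_one] at ho
      omega
    have hxx : x * x ∈ Zs F := by
      rw [← sq, ← hsq, ho]
    obtain ⟨g, hg⟩ := toJ h3 hns x (type2 x hx hxx)
    apply Nat.eq_of_mul_eq_mul_left (show 0 < 2 by norm_num)
    rw [← dbl h2, ← card_conj g x, hg, card4s h3 hns]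
  · intro ho
    have hx : x ∉ Zs F := by
      intro h
      rw [← hone] at h
      rw [h, orderOf_one] at ho
      omega
    have hxx : x * x * x ∈ Zs F := by
      have : x * x * x = x ^ 3 := by rw [pow_succ, sq]
      rw [this, ← hsq, ho]
    have ht := type3 x hx hxx
    obtain ⟨x', hx', hxx', ht'⟩ : ∃ x' : SpecialLinearGroup (Fin 2) F, (QuotientGroup.mk' (Subgroup.center (SpecialLinearGroup (Fin 2) F))) x' =
        (QuotientGroup.mk' (Subgroup.center (SpecialLinearGroup (Fin 2) F))) x ∧ x' ∉ Zs F ∧ tr2 x' = -1 := by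
      rcases sq_one.1 ht with h | h
      · refine ⟨nI F * x, ?_, ?_, ?_⟩
        · rw [map_mul, (pi_one _).2 nI_mem_Zs, one_mul]
        · intro h'
          apply hx
          have e : x = nI F * (nI F * x) := by rw [← mul_assoc, nI_sq, one_mul]
          rw [e]
          exact Subgroup.mul_mem _ nI_mem_Zs h'
        · rw [tr2_nI, h]
      · exact ⟨x, rfl, hx, h⟩
    rw [← hx', ← dbl h2]
    obtain ⟨h, h10, h00, h11, h01⟩ := unip_nf h3 x' hxx' ht'
    rw [← card_conj h x']
    exact card1s h3 hns _ h10 h00 h11 h01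
  · intro h1 ho hd
    rw [hsq] at hd
    have hx : x ∉ Zs F := fun h => h1 (hone.2 h)
    obtain ⟨h, h10, h01, hne⟩ := split_nf h3 hns x hx (hn2 ho h1) hd
    apply Nat.eq_of_mul_eq_mul_left (show 0 < 2 by norm_num)
    rw [← dbl h2, ← card_conj h x]
    exact card2s h3 hns _ h10 h01 hne
  · intro h1 ho hd
    rw [hsq] at hd
    have hx : x ∉ Zs F := fun h => h1 (hone.2 h)
    obtain ⟨hn, ht⟩ := nonsplit_type' h3 hns x hx (hn2 ho h1) hd
    obtain ⟨g, h11, h01, h10, h00⟩ := nonsplit_nf h3 hns x hn ht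
    apply Nat.eq_of_mul_eq_mul_left (show 0 < 2 by norm_num)
    rw [← dbl h2, ← card_conj g x]
    exact card3s h3 hns _ h11 h01 h10 h00

end CfsgLib.Sw
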