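import Mathlib
import Cfsg.Agent.LibPartH12

/-! Sylow 2-subgroups of the symmetric group of degree 8 -/

set_option autoImplicit false
set_option linter.style.haveILetI false

namespace CfsgLib.Syl8H12

open Equiv Equiv.Perm CfsgLib.PartH12

def q2 : Fin 8 → Fin 4 := ![0, 0, 1, 1, 2, 2, 3, 3]
def q4 : Fin 8 → Fin 2 := ![0, 0, 0, 0, 1, 1, 1, 1]
def s0 : Fin 8 → Fin 8 := ![1, 0, 3, 2, 5, 4, 7, 6]

def P0 : Subgroup (Perm (Fin 8)) := G0 q2 ⊓ G0 q4

theorem mem_P0 (g : Perm (Fin 8)) : g ∈ P0 ↔ ∀ x y, (q2 x = q2 y ↔ q2 (g x) = q2 (g y)) ∧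
    (q4 x = q4 y ↔ q4 (g x) = q4 (g y)) :=
  ⟨fun h x y => ⟨h.1 x y, h.2 x y⟩, fun h => ⟨fun x y => (h x y).1, fun x y => (h x y).2⟩⟩

def gen (f : Fin 8 → Fin 8) (h : ∀ x, f (f x) = x) : Perm (Fin 8) := ⟨f, f, h, h⟩

def A : Perm (Fin 8) := gen ![4, 5, 6, 7, 0, 1, 2, 3] (by decide)
def B1 : Perm (Fin 8) := gen ![2, 3, 0, 1, 4, 5, 6, 7] (by decide)
def B2 : Perm (Fin 8) := gen ![0, 1, 2, 3, 6, 7, 4, 5] (by decide)
def C1 : Perm (Fin 8) := gen ![1, 0, 2, 3, 4, 5, 6, 7] (by decide)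
def C2 : Perm (Fin 8) := gen ![0, 1, 3, 2, 4, 5, 6, 7] (by decide)
def C3 : Perm (Fin 8) := gen ![0, 1, 2, 3, 5, 4, 6, 7] (by decide)
def C4 : Perm (Fin 8) := gen ![0, 1, 2, 3, 4, 5, 7, 6] (by decide)

theorem A_mem : A ∈ P0 := (mem_P0 _).mpr (by decide)
theorem B1_mem : B1 ∈ P0 := (mem_P0 _).mpr (by decide)
theorem B2_mem : B2 ∈ P0 := (mem_P0 _).mpr (by decide)
theorem C1_mem : C1 ∈ P0 := (mem_P0 _).mpr (by decide)
theorem C2_mem : C2 ∈ P0 := (mem_P0 _).mpr (by decide)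
theorem C3_mem : C3 ∈ P0 := (mem_P0 _).mpr (by decide)
theorem C4_mem : C4 ∈ P0 := (mem_P0 _).mpr (by decide)

def pw (g : Perm (Fin 8)) (b : Bool) : Perm (Fin 8) := if b then g else 1

theorem pw_mem {g : Perm (Fin 8)} (h : g ∈ P0) (b : Bool) : pw g b ∈ P0 := by
  unfold pw
  split
  · exact h
  · exact P0.one_mem

def F (v : Bool × Bool × Bool × Bool × Bool × Bool × Bool) : Perm (Fin 8) :=
  pw A v.1 * (pw B1 v.2.1 * (pw B2 v.2.2.1 * (pw C1 v.2.2.2.1 * (pw C2 v.2.2.2.2.1 *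
    (pw C3 v.2.2.2.2.2.1 * pw C4 v.2.2.2.2.2.2)))))

theorem F_mem (v : Bool × Bool × Bool × Bool × Bool × Bool × Bool) : F v ∈ P0 :=
  P0.mul_mem (pw_mem A_mem _) (P0.mul_mem (pw_mem B1_mem _) (P0.mul_mem (pw_mem B2_mem _)
    (P0.mul_mem (pw_mem C1_mem _) (P0.mul_mem (pw_mem C2_mem _) (P0.mul_mem (pw_mem C3_mem _)
      (pw_mem C4_mem _))))))

def dec (g : Perm (Fin 8)) : Bool × Bool × Bool × Bool × Bool × Bool × Bool :=
  (decide (4 ≤ (g 0).val), decide ((g 0).val / 2 % 2 = 1), decide ((g 4).val / 2 % 2 = 1),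
    decide ((g 0).val % 2 = 1), decide ((g 2).val % 2 = 1), decide ((g 4).val % 2 = 1),
    decide ((g 6).val % 2 = 1))

set_option synthInstance.maxSize 2000 in
set_option synthInstance.maxHeartbeats 400000 in
theorem dec_F : ∀ a b c d e f g : Bool, dec (F (a, b, c, d, e, f, g)) = (a, b, c, d, e, f, g) := by
  decide +kernel

theorem card_ge : 128 ≤ Nat.card P0 := by
  have h1 : Function.Injective (fun v => (⟨F v, F_mem v⟩ : P0)) := by
    intro v w h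
    have h2 : F v = F w := congrArg Subtype.val h
    obtain ⟨a, b, c, d, e, f, g⟩ := v
    obtain ⟨a', b', c', d', e', f', g'⟩ := w
    rw [← dec_F a b c d e f g, h2, dec_F]
  have h2 := Nat.card_le_card_of_injective _ h1
  have h3 : Nat.card (Bool × Bool × Bool × Bool × Bool × Bool × Bool) = 128 := by
    rw [Nat.card_eq_fintype_card]; rfl
  rwa [h3] at h2

theorem fin2 (h : Fin 2 → Fin 2) (hh : ∀ i j, h i = h j → i = j) (i : Fin 2) : h (h i) = i := by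
  revert i h; decide

theorem q4_iter (g : Perm (Fin 8)) (hg : g ∈ P0) (x : Fin 8) : q4 (g (g x)) = q4 x := by
  have h0 := (mem_P0 g).mp hg
  let sec : Fin 2 → Fin 8 := ![0, 4]
  have hsec : ∀ i, q4 (sec i) = i := by decide
  have h1 : ∀ y, q4 (g y) = q4 (g (sec (q4 y))) := fun y => ((h0 y (sec (q4 y))).2).mp (hsec _).symm
  have h2 := fin2 (fun i => q4 (g (sec i))) (fun i j hij => by
    have := ((h0 (sec i) (sec j)).2).mpr hij
    rwa [hsec, hsec] at this) (q4 x)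
  rw [h1 (g x), h1 x]
  exact h2

theorem q2_iter (g : Perm (Fin 8)) (hg : g ∈ P0) (hg4 : ∀ x, q4 (g x) = q4 x) (x : Fin 8) :
    q2 (g (g x)) = q2 x := by
  have h0 := (mem_P0 g).mp hg
  -- if q2 (g x) = q2 x then fine; otherwise g x is in the other pair
  have key : ∀ x y z : Fin 8, q4 y = q4 x → q4 z = q4 x → q2 y ≠ q2 x → q2 z ≠ q2 y →
      q2 z = q2 x := by decide
  by_cases h1 : q2 (g x) = q2 x
  · exact (((h0 (g x) x).1).mp h1).trans h1
  · refine key x (g x) (g (g x)) (hg4 x) ((hg4 (g x)).trans (hg4 x)) h1 ?_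
    intro h2
    exact h1 (((h0 (g x) x).1).mpr h2)

theorem q1_iter (g : Perm (Fin 8)) (hg2 : ∀ x, q2 (g x) = q2 x) (x : Fin 8) : g (g x) = x := by
  have key : ∀ x y z : Fin 8, q2 y = q2 x → q2 z = q2 x → y ≠ x → z ≠ y → z = x := by decide
  by_cases h1 : g x = x
  · rw [h1, h1]
  · refine key x (g x) (g (g x)) (hg2 x) ((hg2 (g x)).trans (hg2 x)) h1 ?_
    intro h2
    exact h1 (g.injective h2)

theorem P0_pgroup : IsPGroup 2 P0 := by
  rintro ⟨g, hg⟩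
  refine ⟨3, Subtype.ext ?_⟩
  have e1 : g * g ∈ P0 := P0.mul_mem hg hg
  have e2 : (g * g) * (g * g) ∈ P0 := P0.mul_mem e1 e1
  have h4 : ∀ x, q4 ((g * g) x) = q4 x := fun x => q4_iter g hg x
  have h2 : ∀ x, q2 (((g * g) * (g * g)) x) = q2 x := fun x => q2_iter (g * g) e1 h4 x
  have h1 : ∀ x, (((g * g) * (g * g)) * ((g * g) * (g * g))) x = x := fun x => q1_iter _ h2 x
  have h5 : g ^ 2 ^ 3 = ((g * g) * (g * g)) * ((g * g) * (g * g)) := by
    norm_num [pow_succ]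
    group
  change g ^ 2 ^ 3 = 1
  rw [h5]
  exact Perm.ext h1

theorem P0_index : ¬ 2 ∣ P0.index := by
  have h1 := P0.index_mul_card
  rw [Nat.card_perm, Nat.card_fin, show (8 : ℕ).factorial = 2 ^ 7 * 315 by decide] at h1
  obtain ⟨k, hk⟩ := IsPGroup.iff_card.mp P0_pgroup
  have h2 := card_ge
  rw [hk] at h1 h2
  have h3 : 7 ≤ k := by
    by_contra hlt
    have : 2 ^ k ≤ 2 ^ 6 := Nat.pow_le_pow_right (by norm_num) (by omega)
    omega
  obtain ⟨m, rfl⟩ := Nat.exists_eq_add_of_le h3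
  intro hd
  obtain ⟨c, hc⟩ := hd
  rw [hc, pow_add] at h1
  have h4 : 2 ^ 7 * (2 * (c * 2 ^ m)) = 2 ^ 7 * 315 := by rw [← h1]; ring
  have h5 := Nat.eq_of_mul_eq_mul_left (by norm_num) h4
  omega

/-- pair-derangement involutions commuting with `s0` lie in `P0` -/
theorem mem_B (g : Perm (Fin 8)) (h1 : ∀ x, g (g x) = x) (h2 : ∀ x, g (s0 x) = s0 (g x))
    (h3 : ∀ x, g x ≠ x) (h4 : ∀ x, g x ≠ s0 x) : g ∈ P0 := by
  have k1 : ∀ x y : Fin 8, q2 x = q2 y ↔ y = x ∨ y = s0 x := by decide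
  have k2 : ∀ h : Fin 4 → Fin 4, (∀ i, h (h i) = i) → (∀ i, h i ≠ i) →
    ∀ i j : Fin 4, (i.val / 2 = j.val / 2 ↔ (h i).val / 2 = (h j).val / 2) := by decide +kernel
  have k3 : ∀ x y : Fin 8, q4 x = q4 y ↔ (q2 x).val / 2 = (q2 y).val / 2 := by decide
  let sec : Fin 4 → Fin 8 := ![0, 2, 4, 6]
  have hsec : ∀ i, q2 (sec i) = i := by decide
  have hq2 : ∀ x y, q2 x = q2 y → q2 (g x) = q2 (g y) := by
    intro x y h
    rw [k1] at h ⊢
    rcases h with h | h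
    · exact Or.inl (by rw [h])
    · exact Or.inr (by rw [h, h2])
  have hq2' : ∀ x y, q2 x = q2 y ↔ q2 (g x) = q2 (g y) := fun x y =>
    ⟨hq2 x y, fun h => by
      have := hq2 _ _ h
      rwa [h1, h1] at this⟩
  have hh : ∀ x, q2 (g x) = q2 (g (sec (q2 x))) := fun x => hq2 _ _ (hsec _).symm
  have hk := k2 (fun i => q2 (g (sec i))) (fun i => by
    rw [← hh, h1, hsec]) (fun i h => by
    change q2 (g (sec i)) = i at h
    have h5 : q2 (g (sec i)) = q2 (sec i) := by rw [h, hsec]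
    rw [eq_comm, k1] at h5
    rcases h5 with h5 | h5
    · exact h3 _ h5
    · exact h4 _ h5)
  rw [mem_P0]
  intro x y
  refine ⟨hq2' x y, ?_⟩
  rw [k3, k3, hk, ← hh, ← hh]

/-- the alternatives for the second involution -/
def Good (t : Fin 8 → Fin 8) : Prop :=
  (∀ x, s0 (t x) = t (s0 x)) ∨ (∀ x, s0 (t (s0 (t (s0 (t (s0 (t x))))))) = x ∧
    s0 (t (s0 (t x))) ≠ x ∧ s0 (t (s0 (t x))) ≠ s0 x ∧ s0 (t (s0 (t x))) ≠ t x)

instance : DecidablePred Good := fun t => by unfold Good; infer_instance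

def allB (p : Fin 8 → Bool) : Bool := (List.finRange 8).all p

theorem allB_spec {p : Fin 8 → Bool} (h : allB p = true) (x : Fin 8) : p x = true :=
  List.all_eq_true.mp h x (List.mem_finRange x)

def imp (a b : Bool) : Bool := !a || b

theorem imp_spec {a b : Bool} (h : imp a b = true) (ha : a = true) : b = true := by
  subst ha; simpa [imp] using h

theorem comb0 : (allB fun t0 => imp (decide (t0 ≠ 0 ∧ t0 ≠ 1)) <|
    allB fun t1 => imp (decide (t1 ≠ 0 ∧ t1 ≠ 1 ∧ t1 ≠ t0)) <|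
    allB fun t2 => imp (decide (t2 ≠ 2 ∧ t2 ≠ 3 ∧ (t2 = 0 ↔ t0 = 2) ∧ (t2 = 1 ↔ t1 = 2))) <|
    allB fun t3 => imp (decide (t3 ≠ 2 ∧ t3 ≠ 3 ∧ (t3 = 0 ↔ t0 = 3) ∧ (t3 = 1 ↔ t1 = 3))) <|
    allB fun t4 => imp (decide (t4 ≠ 4 ∧ t4 ≠ 5 ∧ (t4 = 0 ↔ t0 = 4) ∧ (t4 = 1 ↔ t1 = 4) ∧
      (t4 = 2 ↔ t2 = 4) ∧ (t4 = 3 ↔ t3 = 4))) <|
    allB fun t5 => imp (decide (t5 ≠ 4 ∧ t5 ≠ 5 ∧ (t5 = 0 ↔ t0 = 5) ∧ (t5 = 1 ↔ t1 = 5) ∧
      (t5 = 2 ↔ t2 = 5) ∧ (t5 = 3 ↔ t3 = 5))) <|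
    allB fun t6 => imp (decide (t6 ≠ 6 ∧ t6 ≠ 7 ∧ (t6 = 0 ↔ t0 = 6) ∧ (t6 = 1 ↔ t1 = 6) ∧
      (t6 = 2 ↔ t2 = 6) ∧ (t6 = 3 ↔ t3 = 6) ∧ (t6 = 4 ↔ t4 = 6) ∧ (t6 = 5 ↔ t5 = 6))) <|
    allB fun t7 => imp (decide (t7 ≠ 6 ∧ t7 ≠ 7 ∧ (t7 = 0 ↔ t0 = 7) ∧ (t7 = 1 ↔ t1 = 7) ∧
      (t7 = 2 ↔ t2 = 7) ∧ (t7 = 3 ↔ t3 = 7) ∧ (t7 = 4 ↔ t4 = 7) ∧ (t7 = 5 ↔ t5 = 7))) <|
    decide (Good ![t0, t1, t2, t3, t4, t5, t6, t7])) = true := by
  decide +kernel

theorem comb (t : Fin 8 → Fin 8) (h1 : ∀ x, t (t x) = x) (h2 : ∀ x, t x ≠ x)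
    (h3 : ∀ x, t x ≠ s0 x) : Good t := by
  have hij : ∀ i j, t i = j ↔ t j = i := fun i j =>
    ⟨fun h => by rw [← h, h1], fun h => by rw [← h, h1]⟩
  have e : t = ![t 0, t 1, t 2, t 3, t 4, t 5, t 6, t 7] := by
    funext x; fin_cases x <;> rfl
  have c := comb0
  have c0 := imp_spec (allB_spec c (t 0)) (decide_eq_true ⟨h2 0, h3 0⟩)
  have c1 := imp_spec (allB_spec c0 (t 1)) (decide_eq_true ⟨h3 1, h2 1, fun h => by
    have := congrArg t h
    rw [h1, h1] at this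
    exact absurd this (by decide)⟩)
  have c2 := imp_spec (allB_spec c1 (t 2)) (decide_eq_true ⟨h2 2, h3 2, hij _ _, hij _ _⟩)
  have c3 := imp_spec (allB_spec c2 (t 3)) (decide_eq_true ⟨h3 3, h2 3, hij _ _, hij _ _⟩)
  have c4 := imp_spec (allB_spec c3 (t 4)) (decide_eq_true ⟨h2 4, h3 4, hij _ _, hij _ _, hij _ _,
    hij _ _⟩)
  have c5 := imp_spec (allB_spec c4 (t 5)) (decide_eq_true ⟨h3 5, h2 5, hij _ _, hij _ _, hij _ _,
    hij _ _⟩)
  have c6 := imp_spec (allB_spec c5 (t 6)) (decide_eq_true ⟨h2 6, h3 6, hij _ _, hij _ _, hij _ _,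
    hij _ _, hij _ _, hij _ _⟩)
  have c7 := imp_spec (allB_spec c6 (t 7)) (decide_eq_true ⟨h3 7, h2 7, hij _ _, hij _ _, hij _ _,
    hij _ _, hij _ _, hij _ _⟩)
  rw [← e] at c7
  exact of_decide_eq_true c7

def S0 : Perm (Fin 8) := gen s0 (by decide)

theorem S0_mem : S0 ∈ P0 := (mem_P0 _).mpr (by decide)

theorem swap_mem0 (x : Fin 8) : swap x (s0 x) ∈ P0 := by
  have h2 : ∀ x, q2 x = q2 (s0 x) := by decide
  have h4 : ∀ x, q4 x = q4 (s0 x) := by decide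
  exact ⟨swap_mem q2 (h2 x), swap_mem q4 (h4 x)⟩

/-- the main claim for the standard Sylow subgroup -/
theorem main (y : Perm (Fin 8)) : ∃ g, g ≠ 1 ∧ g ∈ P0 ∧ y⁻¹ * g * y ∈ P0 := by
  have s00 : ∀ x, s0 (s0 x) = x := by decide
  have s01 : ∀ x, s0 x ≠ x := by decide
  -- the second involution
  obtain ⟨t, ht⟩ : ∃ t : Fin 8 → Fin 8, ∀ x, t x = y (s0 (y⁻¹ x)) := ⟨fun x => y (s0 (y⁻¹ x)), fun _ => rfl⟩
  have yi : ∀ x, y⁻¹ (y x) = x := fun x => y.symm_apply_apply x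
  have iy : ∀ x, y (y⁻¹ x) = x := fun x => y.apply_symm_apply x
  have t1 : ∀ x, t (t x) = x := fun x => by rw [ht (t x), ht x, yi, s00, iy]
  have t2 : ∀ x, t x ≠ x := fun x h => by
    rw [ht] at h
    have := congrArg (y⁻¹ : Perm (Fin 8)) h
    rw [yi] at this
    exact s01 _ this
  -- membership of `y⁻¹ g y` in P0 by `mem_B`
  have mem_y : ∀ g : Perm (Fin 8), (∀ x, g (g x) = x) → (∀ x, g (t x) = t (g x)) →
      (∀ x, g x ≠ x) → (∀ x, g x ≠ t x) → y⁻¹ * g * y ∈ P0 := by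
    intro g g1 g2 g3 g4
    apply mem_B
    · intro x
      simp only [Perm.mul_apply, iy, g1, yi]
    · intro x
      simp only [Perm.mul_apply]
      have := g2 (y x)
      rw [ht, ht, yi] at this
      rw [this, yi]
    · intro x h
      simp only [Perm.mul_apply] at h
      apply g3 (y x)
      rw [← iy (g (y x)), h]
    · intro x h
      simp only [Perm.mul_apply] at h
      apply g4 (y x)
      rw [← iy (g (y x)), h, ht, yi]
  by_cases h3 : ∃ x, t x = s0 x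
  · obtain ⟨x, hx⟩ := h3
    refine ⟨swap x (s0 x), ?_, swap_mem0 x, ?_⟩
    · intro h
      have : swap x (s0 x) x = x := by rw [h]; rfl
      rw [swap_apply_left] at this
      exact s01 x this
    · have e := mul_swap_eq_swap_mul y⁻¹ x (s0 x)
      have e2 : y⁻¹ (s0 x) = s0 (y⁻¹ x) := by rw [← hx, ht, yi]
      rw [e2] at e
      rw [e, inv_mul_cancel_right]
      exact swap_mem0 _
  · push Not at h3
    rcases comb t t1 t2 h3 with h4 | h4
    · refine ⟨S0, ?_, S0_mem, ?_⟩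
      · intro h
        have : S0 0 = 0 := by rw [h]; rfl
        exact absurd this (by decide)
      · exact mem_y S0 s00 h4 s01 (fun x h => h3 x h.symm)
    · -- g = (s t)^2
      have hinv : ∀ x, s0 (t (s0 (t x))) = t (s0 (t (s0 x))) := by
        intro x
        have h5 := (h4 x).1
        have h6 : t (s0 (s0 (t (s0 (t (s0 (t (s0 (t x))))))))) = t (s0 x) := by rw [h5]
        rw [s00, t1] at h6
        have h7 : t (s0 (s0 (t (s0 (t (s0 (t x))))))) = t (s0 (t (s0 x))) := by rw [h6]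
        rwa [s00, t1] at h7
      let g : Perm (Fin 8) := ⟨fun x => s0 (t (s0 (t x))), fun x => s0 (t (s0 (t x))),
        fun x => (h4 x).1, fun x => (h4 x).1⟩
      refine ⟨g, ?_, ?_, ?_⟩
      · intro h
        have : g 0 = 0 := by rw [h]; rfl
        exact (h4 0).2.1 this
      · apply mem_B
        · exact fun x => (h4 x).1
        · intro x
          change s0 (t (s0 (t (s0 x)))) = s0 (s0 (t (s0 (t x))))
          rw [← hinv]
        · exact fun x => (h4 x).2.1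
        · exact fun x => (h4 x).2.2.1
      · apply mem_y
        · exact fun x => (h4 x).1
        · intro x
          change s0 (t (s0 (t (t x)))) = t (s0 (t (s0 (t x))))
          rw [hinv]
        · exact fun x => (h4 x).2.1
        · exact fun x => (h4 x).2.2.2

end CfsgLib.Syl8H12
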