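import Mathlib

set_option autoImplicit false

/-! Centres of Sylow subgroups and automorphisms of quotients by central `p'`-subgroups; fixed vectors of `p`-groups. -/

namespace CfsgLib.SylCen27

/-- central part of a subgroup -/
def cen {G : Type*} [Group G] (P : Subgroup G) : Set G := {x | x ∈ P ∧ ∀ y ∈ P, y * x = x * y}

theorem cen_map {G H : Type*} [Group G] [Group H] (α : G ≃* H) (P : Subgroup G) :
    cen (P.map α.toMonoidHom) = α '' cen P := by
  ext x
  constructor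
  · rintro ⟨⟨y, hy, rfl⟩, hc⟩
    refine ⟨y, ⟨hy, fun z hz => ?_⟩, rfl⟩
    apply α.injective
    rw [map_mul, map_mul]
    exact hc (α z) ⟨z, hz, rfl⟩
  · rintro ⟨y, ⟨hy, hc⟩, rfl⟩
    refine ⟨⟨y, hy, rfl⟩, ?_⟩
    rintro _ ⟨z, hz, rfl⟩
    show α z * α y = α y * α z
    rw [← map_mul, hc z hz, map_mul]

theorem cen_map_of_inf {G H : Type*} [Group G] [Group H] (π : G →* H) (P : Subgroup G)
    (hP : ∀ x ∈ P, π x = 1 → x = 1) : cen (P.map π) = π '' cen P := by
  ext x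
  constructor
  · rintro ⟨⟨z, hz, rfl⟩, hc⟩
    refine ⟨z, ⟨hz, fun s hs => ?_⟩, rfl⟩
    have h1 := hc (π s) ⟨s, hs, rfl⟩
    have h2 : s * z * s⁻¹ * z⁻¹ = 1 := by
      apply hP _ (P.mul_mem (P.mul_mem (P.mul_mem hs hz) (P.inv_mem hs)) (P.inv_mem hz))
      rw [map_mul, map_mul, map_mul, h1, map_inv, map_inv, mul_inv_cancel_right, mul_inv_cancel]
    calc s * z = (s * z * s⁻¹ * z⁻¹) * (z * s) := by group
      _ = z * s := by rw [h2, one_mul]
  · rintro ⟨z, ⟨hz, hc⟩, rfl⟩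
    refine ⟨⟨z, hz, rfl⟩, ?_⟩
    rintro _ ⟨s, hs, rfl⟩
    rw [← map_mul, hc s hs, map_mul]

/-- An isomorphism of quotients by central `p'`-groups maps centres of Sylow subgroups to centres of Sylow subgroups. -/
theorem sylow_cen {G G' H H' : Type*} [Group G] [Group G'] [Group H] [Group H'] [Finite G] [Finite G'] {p : ℕ} [Fact p.Prime]
    (π : G →* H) (π' : G' →* H') (hπ : Function.Surjective π) (hπ' : Function.Surjective π')
    (hK : ∀ x : G, ∀ k : ℕ, x ^ (p ^ k) = 1 → π x = 1 → x = 1)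
    (hK' : ∀ x : G', ∀ k : ℕ, x ^ (p ^ k) = 1 → π' x = 1 → x = 1) (α : H ≃* H') (Q : Sylow p G) :
    ∃ Q' : Sylow p G', α '' (π '' cen (Q : Subgroup G)) = π' '' cen (Q' : Subgroup G') := by
  haveI : Finite H := Finite.of_surjective π hπ
  haveI : Finite H' := Finite.of_surjective π' hπ'
  have h1 : cen ((Q : Subgroup G).map π) = π '' cen (Q : Subgroup G) := by
    apply cen_map_of_inf
    intro x hx h
    obtain ⟨k, hk⟩ := Q.2 ⟨x, hx⟩
    exact hK x k (congrArg Subtype.val hk) h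
  have hsurj : Function.Surjective (α.toMonoidHom.comp π) := α.surjective.comp hπ
  obtain ⟨Q', hQ'⟩ := Sylow.mapSurjective_surjective hπ' p (Q.mapSurjective hsurj)
  refine ⟨Q', ?_⟩
  rw [← h1, ← cen_map]
  have h2 : cen ((Q' : Subgroup G').map π') = π' '' cen (Q' : Subgroup G') := by
    apply cen_map_of_inf
    intro x hx h
    obtain ⟨k, hk⟩ := Q'.2 ⟨x, hx⟩
    exact hK' x k (congrArg Subtype.val hk) h
  rw [← h2]
  have h3 := congrArg (fun P : Sylow p H' => (P : Subgroup H')) hQ'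
  have h4 : (Q' : Subgroup G').map π' = (Q : Subgroup G).map (α.toMonoidHom.comp π) := h3
  rw [h4, Subgroup.map_map]

theorem le_sylow {G : Type*} [Group G] {p : ℕ} [Fact p.Prime] (Q : Sylow p G) (N : Subgroup G) (hN : IsPGroup p N)
    (hQN : ∀ s ∈ Q, ∀ x ∈ N, s * x * s⁻¹ ∈ N) : N ≤ Q := by
  have h1 : IsPGroup p (Q ⊔ N : Subgroup G) := by
    apply IsPGroup.to_sup_of_normal_right' Q.2 hN
    intro s hs
    rw [Subgroup.mem_normalizer_iff]
    intro x
    refine ⟨hQN s hs x, fun h => ?_⟩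
    have h5 := hQN s⁻¹ (Q.inv_mem hs) _ h
    have h6 : s⁻¹ * (s * x * s⁻¹) * s⁻¹⁻¹ = x := by group
    rwa [h6] at h5
  have h2 := Q.3 h1 le_sup_left
  rw [← SetLike.coe_set_eq] at h2
  intro x hx
  have : x ∈ (Q ⊔ N : Subgroup G) := le_sup_right (α := Subgroup _) hx
  exact (Set.ext_iff.mp h2 x).1 this

theorem pow_of_unip {R : Type*} [Ring R] {p : ℕ} [Fact p.Prime] [CharP R p] (a : R) {j k : ℕ} (h : (a - 1) ^ j = 0)
    (hjk : j ≤ p ^ k) : a ^ (p ^ k) = 1 := by
  have h1 : (a - 1) ^ (p ^ k) = 0 := by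
    rw [← Nat.sub_add_cancel hjk, pow_add, h, mul_zero]
  have h2 := sub_pow_char_pow_of_commute (p := p) (n := k) (Commute.one_right a)
  rw [h1, one_pow] at h2
  exact (sub_eq_zero.mp h2.symm)

theorem charP_end {F : Type*} [Field F] {p : ℕ} [CharP F p] {W : Type*} [AddCommGroup W] [Module F W] [Nontrivial W] :
    CharP (Module.End F W) p :=
  charP_of_injective_algebraMap (algebraMap F (Module.End F W)).injective p

/-- unipotent linear equivalences have `p`-power order -/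
theorem equiv_pow_of_unip {F : Type*} [Field F] {p : ℕ} [Fact p.Prime] [CharP F p] {W : Type*} [AddCommGroup W] [Module F W]
    (e : W ≃ₗ[F] W) (j k : ℕ) (hjk : j ≤ p ^ k) (D : W → W) (hD : ∀ x, D x = e x - x) (h : ∀ x, D^[j] x = 0) :
    e ^ (p ^ k) = 1 := by
  rcases subsingleton_or_nontrivial W with hW | hW
  · exact LinearEquiv.ext fun x => Subsingleton.elim _ _
  haveI : CharP (Module.End F W) p := charP_end
  have hD' : D = ((e : W →ₗ[F] W) - 1 : Module.End F W) := funext hD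
  have h0 : (((e : W →ₗ[F] W) : Module.End F W) - 1) ^ j = 0 := by
    refine LinearMap.ext fun x => ?_
    rw [Module.End.pow_apply, ← hD', h x]; rfl
  have key : ((e : W →ₗ[F] W) : Module.End F W) ^ (p ^ k) = 1 := pow_of_unip (p := p) _ h0 hjk
  refine LinearEquiv.ext fun x => ?_
  have h1 := LinearMap.congr_fun key x
  rw [Module.End.pow_apply] at h1
  rw [LinearEquiv.pow_apply]
  exact h1

theorem dvd_card_of_char (p : ℕ) [Fact p.Prime] {W : Type*} [AddCommGroup W] [Finite W] (hW : ∃ w : W, w ≠ 0)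
    (hp : ∀ w : W, p • w = 0) : p ∣ Nat.card W := by
  obtain ⟨w, hw⟩ := hW
  have h1 : addOrderOf w = p := addOrderOf_eq_prime (hp w) hw
  rw [← h1]
  exact addOrderOf_dvd_natCard w

/-- A `p`-group acting linearly in characteristic `p` fixes a vector in any non-zero invariant section. -/
theorem exists_fixed_mod {F V : Type*} [Field F] [AddCommGroup V] [Module F V] [Finite V] {p : ℕ} [Fact p.Prime] [CharP F p]
    {G : Type*} [Group G] (Q : Subgroup G) (hQ : IsPGroup p Q) (ρ : G →* (V ≃ₗ[F] V)) (W0 W : Submodule F V)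
    (hne : ¬ W ≤ W0) (hW : ∀ g ∈ Q, ∀ x ∈ W, ρ g x ∈ W) (hW0 : ∀ g ∈ Q, ∀ x ∈ W0, ρ g x ∈ W0) :
    ∃ u ∈ W, u ∉ W0 ∧ ∀ g ∈ Q, ρ g u - u ∈ W0 := by
  have hpV : ∀ w : V, p • w = 0 := by
    intro w
    rw [← Nat.cast_smul_eq_nsmul F, CharP.cast_eq_zero, zero_smul]
  haveI : Finite (V ⧸ W0) := Finite.of_surjective W0.mkQ W0.mkQ_surjective
  haveI : Finite (W.map W0.mkQ) := Subtype.finite
  letI : MulAction Q (W.map W0.mkQ) :=
    { smul := fun s x => ⟨Submodule.mapQ W0 W0 (ρ s : V ≃ₗ[F] V).toLinearMap (fun y hy => hW0 s s.2 y hy) x.1, by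
        obtain ⟨_, y, hy, rfl⟩ := x
        exact ⟨ρ s y, hW s s.2 y hy, rfl⟩⟩
      one_smul := fun x => by
        obtain ⟨_, y, hy, rfl⟩ := x
        apply Subtype.ext
        show W0.mkQ (ρ ((1 : Q) : G) y) = W0.mkQ y
        rw [OneMemClass.coe_one, map_one]; rfl
      mul_smul := fun s t x => by
        obtain ⟨_, y, hy, rfl⟩ := x
        apply Subtype.ext
        show W0.mkQ (ρ ((s * t : Q) : G) y) = W0.mkQ (ρ s (ρ t y))
        rw [Subgroup.coe_mul, map_mul]; rfl }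
  have hcard : p ∣ Nat.card (W.map W0.mkQ) := by
    apply dvd_card_of_char p
    · obtain ⟨y, hy, hy0⟩ := SetLike.not_le_iff_exists.mp hne
      refine ⟨⟨W0.mkQ y, ⟨y, hy, rfl⟩⟩, fun h => hy0 ?_⟩
      have h1 := congrArg Subtype.val h
      exact (Submodule.Quotient.mk_eq_zero W0).1 h1
    · rintro ⟨_, y, hy, rfl⟩
      apply Subtype.ext
      show p • (W0.mkQ y) = 0
      rw [← map_nsmul, hpV, map_zero]
  obtain ⟨f, hf, hf0⟩ := hQ.exists_fixed_point_of_prime_dvd_card_of_fixed_point (W.map W0.mkQ) hcard (a := 0)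
    (by
      intro s
      apply Subtype.ext
      show Submodule.mapQ W0 W0 (ρ s : V ≃ₗ[F] V).toLinearMap _ 0 = 0
      rw [map_zero])
  obtain ⟨_, y, hy, rfl⟩ := f
  refine ⟨y, hy, fun h => hf0 ?_, fun g hg => ?_⟩
  · apply Subtype.ext
    exact ((Submodule.Quotient.mk_eq_zero W0).2 h).symm
  · have h1 := hf ⟨g, hg⟩
    have h2 := congrArg Subtype.val h1
    have h3 : W0.mkQ (ρ g y) = W0.mkQ y := h2
    exact (Submodule.Quotient.eq W0).1 h3

end CfsgLib.SylCen27
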