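import Mathlib
import Cfsg.Agent.LibSylChH12b

/-!
# Control of Sylow intersections: singular maximal p-locals (helper12)
-/

set_option autoImplicit false
set_option linter.style.haveILetI false
set_option linter.unusedSectionVars false

namespace CfsgLib.SylChH12

open Cfsg Subgroup CfsgLib.LE11Syl
open scoped Pointwise

variable {G : Type*} [Group G] {p : ℕ} [Finite G] [hp : Fact p.Prime]

theorem exists_max {N : Subgroup G} (hN : IsPLocal p N) : ∃ M, IsMaximalPLocal p M ∧ N ≤ M := by
  obtain ⟨M, hNM, hM⟩ := (Set.toFinite {M : Subgroup G | IsPLocal p M}).exists_le_maximal hN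
  refine ⟨M, ⟨hM.1, fun L hL hML => le_antisymm (hM.2 hL hML) hML⟩, hNM⟩

theorem inf_syl {M R : Subgroup G} {V : Sylow p G} (hR : IsSyl p R M) (hRV : R ≤ V) : IsSyl p ((V : Subgroup G) ⊓ M) M := by
  have h1 : (V : Subgroup G) ⊓ M = R := hR.eq_of_le inf_le_right (V.isPGroup'.to_le inf_le_left) (le_inf hRV hR.1)
  rw [h1]; exact hR

theorem lt_card {A B : Subgroup G} (h : A ≤ B) (hne : A ≠ B) : Nat.card A < Nat.card B := by
  by_contra hcon
  exact hne (Subgroup.eq_of_le_of_card_ge h (not_lt.1 hcon))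

theorem s2956 {f : Subgroup G → Set (Subgroup G)} (hf : IsNormalizerFunctor p f)
    (hf1 : ∀ P : Subgroup G, IsPGroup p ↥P → P ≠ ⊥ → ∀ F ∈ f P, F ≠ ⊥) :
    ControlsSylowIntersections p (functorFamily p f ⊤ ∪ {M | IsMaximalPLocal p M ∧ ¬ IsFunctorRegular p f M}) := by
  set 𝓕 := functorFamily p f ⊤ ∪ {M | IsMaximalPLocal p M ∧ ¬ IsFunctorRegular p f M} with h𝓕
  rw [csi_iff]
  have claimA : ∀ (n : ℕ) (S T : Sylow p G), (S : Subgroup G) ⊓ (T : Subgroup G) ≠ ⊥ →
      Nat.card G - Nat.card ((S : Subgroup G) ⊓ (T : Subgroup G) : Subgroup G) ≤ n →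
      Relation.ReflTransGen (Lk p 𝓕 ((S : Subgroup G) ⊓ (T : Subgroup G))) S T := by
    intro n
    induction n using Nat.strong_induction_on with
    | _ n IH =>
    intro S T hD hn
    by_cases hST : S = T
    · rw [hST]
    set D := (S : Subgroup G) ⊓ (T : Subgroup G) with hDd
    have link : ∀ (R : Subgroup G) (U V : Sylow p G), Nat.card D < Nat.card R → D ≤ R → R ≤ U → R ≤ V →
        Relation.ReflTransGen (Lk p 𝓕 D) U V := by
      intro R U V hc hDR hU hV
      have hR : R ≤ (U : Subgroup G) ⊓ (V : Subgroup G) := le_inf hU hV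
      refine rel_mono (hDR.trans hR) (IH _ ?_ U V ?_ le_rfl)
      · have h1 := Subgroup.card_le_of_le hR
        have h2 := Subgroup.card_le_card_group ((U : Subgroup G) ⊓ (V : Subgroup G))
        omega
      · intro hb
        rw [hb, le_bot_iff] at hR
        rw [hR, le_bot_iff] at hDR
        exact hD hDR
    have claimB : ∀ (m : ℕ) (M : Subgroup G), IsMaximalPLocal p M → ∀ U V : Sylow p G,
        IsSyl p ((U : Subgroup G) ⊓ M) M → IsSyl p ((V : Subgroup G) ⊓ M) M →
        Nat.card G - Nat.card ((U : Subgroup G) ⊓ M : Subgroup G) ≤ m →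
        Nat.card D < Nat.card ((U : Subgroup G) ⊓ M : Subgroup G) → D ≤ (U : Subgroup G) ⊓ M → D ≤ (V : Subgroup G) ⊓ M →
        Relation.ReflTransGen (Lk p 𝓕 D) U V := by
      intro m
      induction m using Nat.strong_induction_on with
      | _ m IHm =>
      intro M hM U V hU hV hm hDU hDU' hDV'
      by_cases hreg : IsFunctorRegular p f M
      · rw [regular_iff hf] at hreg
        have hb : ((U : Subgroup G) ⊓ M) ⊓ ((V : Subgroup G) ⊓ M) ≠ ⊥ := by
          intro hb
          apply hD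
          rw [eq_bot_iff, ← hb]
          exact le_inf hDU' hDV'
        have hch := hreg _ _ hU hV hb
        have sub : ∀ P Q, LkM p f M D P Q → D ≤ P → ∀ A B : Sylow p G, P ≤ A → Q ≤ B → Relation.ReflTransGen (Lk p 𝓕 D) A B := by
          rintro P Q ⟨X, hX, x, hx, hP, hQ, hPX, hQX, hxQ, hDQ⟩ hDP A B hPA hQB
          obtain ⟨R, hR, F, hF, rfl⟩ := mem_ff.1 hX
          have hRX := le_X hf hR hF
          obtain ⟨y, hy, hyQ⟩ := (hQ.mono hQX inf_le_left).conj_eq (hR.mono hRX inf_le_left)
          have hFQ : F ∈ f Q := by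
            have h1 := f_conj hf hR.2.1 hF y
            rwa [hyQ, conj_smul_eq_iff.2 (Subgroup.mem_inf.1 hy).2] at h1
          have hQne : Q ≠ ⊥ := fun h => hD (by rw [eq_bot_iff, ← h]; exact hDQ)
          have hFne := hf1 Q hQ.2.1 hQne F hFQ
          have hcQ : Nat.card Q = Nat.card ((U : Subgroup G) ⊓ M : Subgroup G) := hQ.card_eq hU
          have hcP : Nat.card P = Nat.card ((U : Subgroup G) ⊓ M : Subgroup G) := hP.card_eq hU
          obtain ⟨hFle, hNQ⟩ := (hf Q hQ.2.1).1 F hFQ
          have hxF := (Subgroup.mem_inf.1 hx).2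
          by_cases hQG : IsSyl p Q ⊤
          · have hBQ : (B : Subgroup G) = Q := hQG.eq_of_le le_top B.isPGroup' hQB
            have hPG : IsSyl p P ⊤ := by
              refine isSyl_of_card le_top ?_
              rw [← hQG.card_pow, hP.card_eq hQ]
            have hAP : (A : Subgroup G) = P := hPG.eq_of_le le_top A.isPGroup' hPA
            have hmem : (⊤ : Subgroup G) ⊓ normalizer (F : Set G) ∈ 𝓕 := Or.inl (mem_ff.2 ⟨Q, hQG, F, hFQ, rfl⟩)
            have hPF : P ≤ (⊤ : Subgroup G) ⊓ normalizer (F : Set G) := hPX.trans (inf_le_inf_right _ le_top)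
            have hQF : Q ≤ (⊤ : Subgroup G) ⊓ normalizer (F : Set G) := hQX.trans (inf_le_inf_right _ le_top)
            refine Relation.ReflTransGen.single ⟨⊤ ⊓ normalizer (F : Set G), x, ?_, ?_, ?_, ?_, ?_⟩
            · rw [mem_sylowMembers, hAP, inf_eq_left.2 hPF]
              exact ⟨hmem, hPG.mono hPF le_top⟩
            · rw [mem_sylowMembers, hBQ, inf_eq_left.2 hQF]
              exact ⟨hmem, hQG.mono hQF le_top⟩
            · exact Subgroup.mem_inf.2 ⟨mem_top _, hxF⟩
            · rw [hAP, hBQ, scr, hxQ]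
            · rw [hBQ]; exact le_inf hDQ (hDQ.trans hQF)
          · -- Q is not Sylow in G
            have hFp : IsPGroup p F := hQ.2.1.to_le hFle
            obtain ⟨M', hM', hNM'⟩ := exists_max (p := p) ⟨F, hFp, hFne, rfl⟩
            have hQB' : Q ≠ (B : Subgroup G) := fun h => hQG (h ▸ isSyl_top B)
            obtain ⟨g, hgB, hgQ, hgN⟩ := exists_mem_normalizer B.isPGroup' (lt_of_le_of_ne hQB hQB')
            have hQ1 : Q ≤ (B : Subgroup G) ⊓ normalizer (Q : Set G) := le_inf hQB Subgroup.le_normalizer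
            have hQ1ne : Q ≠ (B : Subgroup G) ⊓ normalizer (Q : Set G) := by
              intro h
              apply hgQ
              rw [h]; exact Subgroup.mem_inf.2 ⟨hgB, hgN⟩
            have hQ1M : (B : Subgroup G) ⊓ normalizer (Q : Set G) ≤ M' := inf_le_right.trans (hNQ.trans hNM')
            obtain ⟨R', hR', hQR'⟩ := exists_isSyl_ge (p := p) hQ1M (B.isPGroup'.to_le inf_le_left)
            obtain ⟨V0, hV0⟩ := hR'.2.1.exists_le_sylow
            have hV0M := inf_syl hR' hV0
            have hxM' : x⁻¹ ∈ M' := hNM' (inv_mem hxF)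
            have hV1M : IsSyl p (((x⁻¹ • V0 : Sylow p G) : Subgroup G) ⊓ M') M' := by
              have h1 := hV0M.conj x⁻¹
              rw [Subgroup.smul_inf, conj_smul_of_mem hxM'] at h1
              exact h1
            have hQV0 : Q ≤ V0 := hQ1.trans (hQR'.trans hV0)
            have hQM' : Q ≤ M' := hQ1.trans hQ1M
            have hPV1 : P ≤ ((x⁻¹ • V0 : Sylow p G) : Subgroup G) := by
              rw [syl_smul, ← hxQ]
              exact Subgroup.pointwise_smul_le_pointwise_smul_iff.2 hQV0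
            have hPM' : P ≤ M' := by
              rw [← hxQ, ← conj_smul_of_mem hxM']
              exact Subgroup.pointwise_smul_le_pointwise_smul_iff.2 hQM'
            have hlt : Nat.card Q < Nat.card (((x⁻¹ • V0 : Sylow p G) : Subgroup G) ⊓ M' : Subgroup G) := by
              rw [hV1M.card_eq hR']
              exact (lt_card hQ1 hQ1ne).trans_le (Subgroup.card_le_of_le hQR')
            have hle2 := Subgroup.card_le_card_group (((x⁻¹ • V0 : Sylow p G) : Subgroup G) ⊓ M' : Subgroup G)
            have h5 := IHm (Nat.card G - Nat.card (((x⁻¹ • V0 : Sylow p G) : Subgroup G) ⊓ M' : Subgroup G)) (by omega)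
              M' hM' (x⁻¹ • V0) V0 hV1M hV0M le_rfl (by omega) (hDP.trans (le_inf hPV1 hPM')) (hDQ.trans (le_inf hQV0 hQM'))
            exact ((link P A (x⁻¹ • V0) (by omega) hDP hPA hPV1).trans h5).trans (link Q V0 B (by omega) hDQ hQV0 hQB)
        have key : ∀ W, Relation.ReflTransGen (LkM p f M (((U : Subgroup G) ⊓ M) ⊓ ((V : Subgroup G) ⊓ M))) ((U : Subgroup G) ⊓ M) W →
            D ≤ W ∧ IsPGroup p W ∧ ∀ B : Sylow p G, W ≤ B → Relation.ReflTransGen (Lk p 𝓕 D) U B := by
          intro W hW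
          induction hW with
          | refl => exact ⟨hDU', hU.2.1, fun B hB => link _ U B hDU hDU' inf_le_left hB⟩
          | @tail W W' _ hWW ih =>
            obtain ⟨hDW, hWp, hW⟩ := ih
            have hWW' := hWW.mono (le_inf hDU' hDV')
            obtain ⟨A, hA⟩ := hWp.exists_le_sylow
            obtain ⟨X, hX, x, hx, hP, hQ, hPX, hQX, hxQ, hDQ⟩ := hWW'
            exact ⟨hDQ, hQ.2.1, fun B hB => (hW A hA).trans (sub W W' ⟨X, hX, x, hx, hP, hQ, hPX, hQX, hxQ, hDQ⟩ hDW A B hA hB)⟩
        exact (key _ hch).2.2 V inf_le_left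
      · -- singular
        obtain ⟨m0, hm0, hm⟩ := hU.conj_eq hV
        have hm0U : ((m0 • V : Sylow p G) : Subgroup G) ⊓ M = (U : Subgroup G) ⊓ M := by
          rw [← hm, syl_smul, Subgroup.smul_inf, conj_smul_of_mem hm0]
        have hmem : M ∈ 𝓕 := Or.inr ⟨hM, hreg⟩
        refine (link ((U : Subgroup G) ⊓ M) U (m0 • V) hDU hDU' inf_le_left (by rw [← hm0U]; exact inf_le_left)).tail ?_
        refine ⟨M, m0⁻¹, ?_, ?_, inv_mem hm0, ?_, hDV'⟩
        · rw [mem_sylowMembers, hm0U]; exact ⟨hmem, hU⟩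
        · rw [mem_sylowMembers]; exact ⟨hmem, hV⟩
        · rw [scr, inv_inv]; rfl
    -- main argument
    have hDp : IsPGroup p D := S.isPGroup'.to_le inf_le_left
    obtain ⟨M, hM, hNM⟩ := exists_max (p := p) ⟨D, hDp, hD, rfl⟩
    have side : ∀ W : Sylow p G, D ≤ W → D ≠ W → ∃ U : Sylow p G, IsSyl p ((U : Subgroup G) ⊓ M) M ∧
        Nat.card D < Nat.card ((U : Subgroup G) ⊓ M : Subgroup G) ∧ D ≤ (U : Subgroup G) ⊓ M ∧
        Relation.ReflTransGen (Lk p 𝓕 D) W U ∧ Relation.ReflTransGen (Lk p 𝓕 D) U W := by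
      intro W hDW hne
      obtain ⟨g, hgW, hgD, hgN⟩ := exists_mem_normalizer W.isPGroup' (lt_of_le_of_ne hDW hne)
      have h1 : D ≤ (W : Subgroup G) ⊓ normalizer (D : Set G) := le_inf hDW Subgroup.le_normalizer
      have h1ne : D ≠ (W : Subgroup G) ⊓ normalizer (D : Set G) := by
        intro h
        apply hgD
        rw [h]; exact Subgroup.mem_inf.2 ⟨hgW, hgN⟩
      obtain ⟨R, hR, hle⟩ := exists_isSyl_ge (p := p) ((inf_le_right : (W : Subgroup G) ⊓ normalizer (D : Set G) ≤ _).trans hNM)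
        (W.isPGroup'.to_le inf_le_left)
      obtain ⟨U, hU⟩ := hR.2.1.exists_le_sylow
      have hUM := inf_syl hR hU
      have hlt := lt_card h1 h1ne
      have hleU : (W : Subgroup G) ⊓ normalizer (D : Set G) ≤ (U : Subgroup G) ⊓ M := hle.trans (le_inf hU hR.1)
      refine ⟨U, hUM, hlt.trans_le (Subgroup.card_le_of_le hleU), h1.trans hleU, ?_, ?_⟩
      · exact link _ W U hlt h1 inf_le_left (hleU.trans inf_le_left)
      · exact link _ U W hlt h1 (hleU.trans inf_le_left) inf_le_left
    have hcST : Nat.card (S : Subgroup G) = Nat.card (T : Subgroup G) := (isSyl_top S).card_eq (isSyl_top T)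
    obtain ⟨U, hU1, hU2, hU3, hU4, _⟩ := side S inf_le_left (by
      intro h
      apply hST
      have h2 : (S : Subgroup G) ≤ T := by rw [← h]; exact inf_le_right
      exact Sylow.ext (Subgroup.eq_of_le_of_card_ge h2 hcST.ge))
    obtain ⟨V, hV1, hV2, hV3, _, hV5⟩ := side T inf_le_right (by
      intro h
      apply hST
      have h2 : (T : Subgroup G) ≤ S := by rw [← h]; exact inf_le_left
      exact (Sylow.ext (Subgroup.eq_of_le_of_card_ge h2 hcST.le)).symm)
    exact (hU4.trans (claimB _ M hM U V hU1 hV1 le_rfl hU2 hU3 hV3)).trans hV5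
  intro S T _ hD
  exact claimA _ S T hD le_rfl

end CfsgLib.SylChH12
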