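import Cfsg.Prelude
import Mathlib

set_option autoImplicit false

/-! Sylow subgroups of the alternating groups: commutativity. -/

namespace CfsgLib.SylSn27

theorem comm_of_small {G : Type*} [Group G] [Finite G] {p : ℕ} [Fact p.Prime] (hG : IsPGroup p G) {X : Type*} [Finite X] (φ : G →* Equiv.Perm X)
    (hφ : Function.Injective φ) (h : Nat.card X < p ^ 2) (a b : G) : a * b = b * a := by
  have hp : p.Prime := Fact.out
  letI : MulAction G X := MulAction.compHom X φ
  have hsm : ∀ (g : G) (x : X), g • x = φ g x := fun _ _ => rfl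
  apply hφ
  apply Equiv.ext
  intro x
  rw [← hsm, ← hsm]
  obtain ⟨k, hk⟩ := hG.index (MulAction.stabilizer G x)
  have h1 : (MulAction.stabilizer G x).index < p ^ 2 := by
    rw [MulAction.index_stabilizer]
    refine lt_of_le_of_lt ?_ h
    exact Set.ncard_le_card _
  have hk2 : k < 2 := by
    rw [hk] at h1
    exact (Nat.pow_lt_pow_iff_right hp.one_lt).1 h1
  interval_cases k
  · rw [pow_zero, Subgroup.index_eq_one] at hk
    have h2 : ∀ g : G, g • x = x := fun g => by
      have : g ∈ MulAction.stabilizer G x := by rw [hk]; trivial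
      exact this
    rw [h2, h2]
  · rw [pow_one] at hk
    obtain ⟨n, hn⟩ := IsPGroup.iff_card.1 hG
    have hn0 : n ≠ 0 := by
      rintro rfl
      have h2 := (MulAction.stabilizer G x).index_dvd_card
      rw [hk, hn, pow_zero] at h2
      exact hp.one_lt.ne' (Nat.dvd_one.1 h2)
    haveI : (MulAction.stabilizer G x).Normal := by
      apply Subgroup.normal_of_index_eq_minFac_card
      rw [hk, hn, hp.pow_minFac hn0]
    have hq : Nat.card (G ⧸ MulAction.stabilizer G x) = p := hk
    haveI := isCyclic_of_prime_card hq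
    have h2 : (QuotientGroup.mk (a * b) : G ⧸ MulAction.stabilizer G x) = QuotientGroup.mk (b * a) := by
      rw [QuotientGroup.mk_mul, QuotientGroup.mk_mul]
      letI := IsCyclic.commGroup (α := G ⧸ MulAction.stabilizer G x)
      exact mul_comm _ _
    have h3 : ((a * b)⁻¹ * (b * a)) • x = x := QuotientGroup.eq.1 h2
    rw [mul_smul, inv_smul_eq_iff] at h3
    exact h3.symm

/-- if one Sylow subgroup is commutative, all `p`-subgroups are -/
theorem comm_of_sylow {G : Type*} [Group G] [Finite G] {p : ℕ} [Fact p.Prime] (S : Sylow p G) (hS : ∀ a ∈ S, ∀ b ∈ S, a * b = b * a)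
    (H : Subgroup G) (hH : IsPGroup p H) : ∀ a ∈ H, ∀ b ∈ H, a * b = b * a := by
  intro a ha b hb
  obtain ⟨T, hT⟩ := hH.exists_le_sylow
  obtain ⟨g, hg⟩ := MulAction.exists_smul_eq G T S
  have key : ∀ x ∈ H, g * x * g⁻¹ ∈ S := by
    intro x hx
    rw [← hg]
    exact ⟨x, hT hx, rfl⟩
  have h1 := hS _ (key a ha) _ (key b hb)
  have h2 : g * (a * b) * g⁻¹ = g * (b * a) * g⁻¹ := by
    calc g * (a * b) * g⁻¹ = g * a * g⁻¹ * (g * b * g⁻¹) := by group
      _ = g * b * g⁻¹ * (g * a * g⁻¹) := h1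
      _ = g * (b * a) * g⁻¹ := by group
  exact mul_left_cancel (mul_right_cancel h2)

/-- the group `Z_p ≀ Z_p` on `p²` points -/
def W (p : ℕ) : Subgroup (Equiv.Perm (ZMod p × ZMod p)) where
  carrier := {σ | ∃ (f : ZMod p → ZMod p) (c : ZMod p), ∀ i j, σ (i, j) = (i + f j, j + c)}
  mul_mem' := by
    rintro σ τ ⟨f, c, h⟩ ⟨g, d, h'⟩
    refine ⟨fun j => g j + f (j + d), d + c, fun i j => ?_⟩
    rw [Equiv.Perm.mul_apply, h', h]
    ext
    · show i + g j + f (j + d) = i + (g j + f (j + d)); ring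
    · show j + d + c = j + (d + c); ring
  one_mem' := ⟨fun _ => 0, 0, fun i j => by rw [Equiv.Perm.one_apply, add_zero, add_zero]⟩
  inv_mem' := by
    rintro σ ⟨f, c, h⟩
    refine ⟨fun j => - f (j - c), - c, fun i j => ?_⟩
    rw [Equiv.Perm.inv_eq_iff_eq, h]
    ext
    · show i = i + - f (j - c) + f (j + - c)
      rw [← sub_eq_add_neg j c]; ring
    · show j = j + -c + c; ring

theorem W_pow {p : ℕ} {σ : Equiv.Perm (ZMod p × ZMod p)} {f : ZMod p → ZMod p} {c : ZMod p} (h : ∀ i j, σ (i, j) = (i + f j, j + c)) (k : ℕ) :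
    ∃ g : ZMod p → ZMod p, ∀ i j, (σ ^ k) (i, j) = (i + g j, j + k * c) := by
  induction k with
  | zero => exact ⟨fun _ => 0, fun i j => by rw [pow_zero, Equiv.Perm.one_apply, Nat.cast_zero, zero_mul, add_zero, add_zero]⟩
  | succ k ih =>
    obtain ⟨g, hg⟩ := ih
    refine ⟨fun j => g j + f (j + k * c), fun i j => ?_⟩
    rw [pow_succ', Equiv.Perm.mul_apply, hg, h, Nat.cast_succ]
    ext
    · show i + g j + f (j + k * c) = i + (g j + f (j + k * c)); ring
    · show j + k * c + c = j + (k + 1) * c; ring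

theorem W_pow0 {p : ℕ} {σ : Equiv.Perm (ZMod p × ZMod p)} {f : ZMod p → ZMod p} (h : ∀ i j, σ (i, j) = (i + f j, j)) (k : ℕ) :
    ∀ i j, (σ ^ k) (i, j) = (i + k * f j, j) := by
  induction k with
  | zero => intro i j; rw [pow_zero, Equiv.Perm.one_apply, Nat.cast_zero, zero_mul, add_zero]
  | succ k ih =>
    intro i j
    rw [pow_succ', Equiv.Perm.mul_apply, ih, h, Nat.cast_succ]
    ext
    · show i + k * f j + f j = i + (k + 1) * f j; ring
    · rfl

theorem W_pgroup (p : ℕ) : IsPGroup p (W p) := by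
  rintro ⟨σ, f, c, h⟩
  refine ⟨2, Subtype.ext ?_⟩
  show σ ^ (p ^ 2) = 1
  rw [pow_two, pow_mul]
  obtain ⟨g, hg⟩ := W_pow h p
  have hg' : ∀ i j, (σ ^ p) (i, j) = (i + g j, j) := by
    intro i j
    rw [hg, CharP.cast_eq_zero, zero_mul, add_zero]
  apply Equiv.ext
  rintro ⟨i, j⟩
  rw [W_pow0 hg' p, CharP.cast_eq_zero, zero_mul, add_zero, Equiv.Perm.one_apply]

theorem W_noncomm {p : ℕ} [Fact p.Prime] : ∃ a ∈ W p, ∃ b ∈ W p, a * b ≠ b * a := by
  classical
  let a : Equiv.Perm (ZMod p × ZMod p) :=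
    { toFun := fun x => (x.1 + (if x.2 = 0 then 1 else 0), x.2), invFun := fun x => (x.1 - (if x.2 = 0 then 1 else 0), x.2)
      left_inv := fun x => by ext <;> simp
      right_inv := fun x => by ext <;> simp }
  let b : Equiv.Perm (ZMod p × ZMod p) :=
    { toFun := fun x => (x.1, x.2 + 1), invFun := fun x => (x.1, x.2 - 1)
      left_inv := fun x => by ext <;> simp
      right_inv := fun x => by ext <;> simp }
  refine ⟨a, ⟨fun j => if j = 0 then 1 else 0, 0, fun i j => by rw [add_zero]; rfl⟩, b, ⟨fun _ => 0, 1, fun i j => by rw [add_zero]; rfl⟩, fun h => ?_⟩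
  have h1 := congrArg (fun s : Equiv.Perm (ZMod p × ZMod p) => (s (0, 0)).1) h
  have h2 : (a (b (0, 0))).1 = (b (a (0, 0))).1 := h1
  have h3 : (a (b (0, 0))).1 = 0 + (if (0 : ZMod p) + 1 = 0 then 1 else 0) := rfl
  have h4 : (b (a (0, 0))).1 = 0 + (if (0 : ZMod p) = 0 then 1 else 0) := rfl
  rw [h3, h4, if_pos rfl, zero_add, if_neg (by rw [zero_add]; exact one_ne_zero)] at h2
  exact zero_ne_one (h2.trans (zero_add 1))

theorem sign_of_odd {X : Type*} [Fintype X] [DecidableEq X] {p : ℕ} (hp : Odd p) {H : Subgroup (Equiv.Perm X)} (hH : IsPGroup p H) {σ : Equiv.Perm X} (hσ : σ ∈ H) :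
    Equiv.Perm.sign σ = 1 := by
  obtain ⟨k, hk⟩ := hH ⟨σ, hσ⟩
  have h1 : σ ^ p ^ k = 1 := congrArg Subtype.val hk
  have h2 := congrArg Equiv.Perm.sign h1
  rw [map_pow, map_one] at h2
  rcases Int.units_eq_one_or (Equiv.Perm.sign σ) with h | h
  · exact h
  · rw [h, (hp.pow (n := k)).neg_one_pow] at h2
    exact absurd h2 (by decide)

/-- a homomorphism from the symmetric group to an alternating group with two more points -/
def eB : ℤˣ →* Equiv.Perm Bool where
  toFun u := if u = 1 then 1 else Equiv.swap false true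
  map_one' := by decide
  map_mul' := by decide

theorem sign_eB : ∀ u : ℤˣ, Equiv.Perm.sign (eB u) = u := by decide

noncomputable def theta (X : Type*) [Fintype X] [DecidableEq X] : Equiv.Perm X →* Equiv.Perm (X ⊕ Bool) :=
  (Equiv.Perm.sumCongrHom X Bool).comp ((MonoidHom.id _).prod (eB.comp Equiv.Perm.sign))

theorem theta_apply {X : Type*} [Fintype X] [DecidableEq X] (σ : Equiv.Perm X) : theta X σ = Equiv.Perm.sumCongr σ (eB (Equiv.Perm.sign σ)) := rfl

theorem sign_theta {X : Type*} [Fintype X] [DecidableEq X] (σ : Equiv.Perm X) : Equiv.Perm.sign (theta X σ) = 1 := by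
  rw [theta_apply, Equiv.Perm.sign_sumCongr, sign_eB, Int.units_mul_self]

theorem theta_inj {X : Type*} [Fintype X] [DecidableEq X] : Function.Injective (theta X) := by
  intro σ τ h
  apply Equiv.ext
  intro x
  have h1 := congrArg (fun s : Equiv.Perm (X ⊕ Bool) => s (Sum.inl x)) h
  exact Sum.inl_injective h1

theorem sign_via {X Y : Type*} [Fintype X] [DecidableEq X] [Fintype Y] [DecidableEq Y] (ι : X ↪ Y) (σ : Equiv.Perm X) :
    Equiv.Perm.sign (Equiv.Perm.viaEmbeddingHom ι σ) = Equiv.Perm.sign σ := by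
  rw [Equiv.Perm.viaEmbeddingHom_apply]
  unfold Equiv.Perm.viaEmbedding
  convert Equiv.Perm.sign_extendDomain σ (Equiv.ofInjective ι.1 ι.2)

/-- non-commutative `p`-subgroups of alternating groups -/
theorem exists_noncomm {n p : ℕ} [Fact p.Prime] (hn : 6 ≤ n) (h : p ^ 2 ≤ n) :
    ∃ H : Subgroup (alternatingGroup (Fin n)), IsPGroup p H ∧ ∃ a ∈ H, ∃ b ∈ H, a * b ≠ b * a := by
  have hp : p.Prime := Fact.out
  haveI : NeZero p := ⟨hp.ne_zero⟩
  -- enough to have a homomorphism
  have key : ∀ f : Equiv.Perm (ZMod p × ZMod p) →* Equiv.Perm (Fin n), Function.Injective f → (∀ σ ∈ W p, Equiv.Perm.sign (f σ) = 1) →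
      ∃ H : Subgroup (alternatingGroup (Fin n)), IsPGroup p H ∧ ∃ a ∈ H, ∃ b ∈ H, a * b ≠ b * a := by
    intro f hf hs
    obtain ⟨a, ha, b, hb, hab⟩ := W_noncomm (p := p)
    refine ⟨((W p).map f).subgroupOf (alternatingGroup (Fin n)), ?_, ⟨f a, Equiv.Perm.mem_alternatingGroup.2 (hs a ha)⟩, ⟨a, ha, rfl⟩,
      ⟨f b, Equiv.Perm.mem_alternatingGroup.2 (hs b hb)⟩, ⟨b, hb, rfl⟩, ?_⟩
    · exact ((W_pgroup p).map f).comap_subtype
    · intro h1
      apply hab
      apply hf
      rw [map_mul, map_mul]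
      exact congrArg Subtype.val h1
  by_cases hp2 : p = 2
  · subst hp2
    have hcard : Fintype.card ((ZMod 2 × ZMod 2) ⊕ Bool) ≤ Fintype.card (Fin n) := by
      rw [Fintype.card_sum, Fintype.card_prod, ZMod.card, Fintype.card_bool, Fintype.card_fin]; omega
    obtain ⟨ι⟩ := Function.Embedding.nonempty_of_card_le hcard
    refine key ((Equiv.Perm.viaEmbeddingHom ι).comp (theta _)) ?_ ?_
    · exact (Equiv.Perm.viaEmbeddingHom_injective ι).comp theta_inj
    · intro σ _
      rw [MonoidHom.comp_apply, sign_via, sign_theta]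
  · have hcard : Fintype.card (ZMod p × ZMod p) ≤ Fintype.card (Fin n) := by
      rw [Fintype.card_prod, ZMod.card, Fintype.card_fin, ← pow_two]; exact h
    obtain ⟨ι⟩ := Function.Embedding.nonempty_of_card_le hcard
    refine key (Equiv.Perm.viaEmbeddingHom ι) (Equiv.Perm.viaEmbeddingHom_injective ι) ?_
    intro σ hσ
    rw [sign_via]
    exact sign_of_odd (hp.odd_of_ne_two hp2) (W_pgroup p) hσ

/-- Sylow subgroups of small alternating groups are commutative -/
theorem sylow_comm {n p : ℕ} [Fact p.Prime] (h : n < p ^ 2) (H : Subgroup (alternatingGroup (Fin n))) (hH : IsPGroup p H) :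
    ∀ a ∈ H, ∀ b ∈ H, a * b = b * a := by
  intro a ha b hb
  have h1 := comm_of_small hH (X := Fin n) ((alternatingGroup (Fin n)).subtype.comp H.subtype)
    ((Subgroup.subtype_injective _).comp (Subgroup.subtype_injective _)) (by rw [Nat.card_eq_fintype_card, Fintype.card_fin]; exact h) ⟨a, ha⟩ ⟨b, hb⟩
  exact congrArg Subtype.val h1

end CfsgLib.SylSn27
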