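import Mathlib
import Cfsg.Agent.EqBase

set_option autoImplicit false
set_option maxHeartbeats 400000
set_option linter.unusedSectionVars false

/-! Sylow subgroups of symmetric and alternating groups are generated by elements of order `p` (helper19) -/

namespace CfsgLib.SylSym19

open Equiv Subgroup

universe u v

/-- a group generated by elements with `x ^ p = 1` has elementary abelianization -/
theorem pow_mem_commutator {X : Type u} [Group X] {p : ℕ} (h : closure {x : X | x ^ p = 1} = ⊤) (x : X) : x ^ p ∈ commutator X := by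
  have h1 : ∀ x ∈ closure {x : X | x ^ p = 1}, (Abelianization.of x) ^ p = 1 := by
    intro x hx
    induction hx using closure_induction with
    | mem y hy => rw [← map_pow, (show y ^ p = 1 from hy), map_one]
    | one => rw [map_one, one_pow]
    | mul a b _ _ ha hb => rw [map_mul, mul_pow, ha, hb, one_mul]
    | inv a _ ha => rw [map_inv, inv_pow, ha, inv_one]
  have h2 := h1 x (by rw [h]; exact mem_top _)
  rw [← map_pow] at h2
  have h3 := (QuotientGroup.eq_one_iff (N := commutator X) (x ^ p)).1 h2
  exact h3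

/-- transport of generation to an abstract group -/
theorem closure_eq_top_of_inj {X : Type u} [Group X] {Y : Type v} [Group Y] {p : ℕ} (j : X →* Y) (hj : Function.Injective j)
    {S : Set Y} (hS : ∀ s ∈ S, s ^ p = 1) (h : closure S = j.range) : closure {x : X | x ^ p = 1} = ⊤ := by
  have h1 : (closure {x : X | x ^ p = 1}).map j = j.range := by
    apply le_antisymm (Subgroup.map_le_range _ _)
    rw [← h, closure_le]
    intro s hs
    have h2 : s ∈ j.range := by rw [← h]; exact Subgroup.subset_closure hs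
    obtain ⟨x, rfl⟩ := h2
    refine ⟨x, Subgroup.subset_closure ?_, rfl⟩
    apply hj
    rw [map_pow, map_one]
    exact hS _ hs
  rw [eq_top_iff]
  intro x _
  have h2 : j x ∈ (closure {x : X | x ^ p = 1}).map j := by rw [h1]; exact ⟨x, rfl⟩
  obtain ⟨y, hy, hxy⟩ := h2
  rwa [← hj hxy]

section Sgn
variable {X : Type u} [Group X] (sg : X →* ℤˣ) {S : Set X} {p : ℕ} [hp : Fact p.Prime]

theorem odd_case (hp2 : p ≠ 2) {s : X} (h : s ^ p = 1) : sg s = 1 := by
  have h1 : (sg s) ^ p = 1 := by rw [← map_pow, h, map_one]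
  have hodd : Odd p := hp.out.odd_of_ne_two hp2
  rcases Int.units_eq_one_or (sg s) with h2 | h2
  · exact h2
  · rw [h2, hodd.neg_one_pow] at h1
    exact absurd h1 (by decide)

theorem ker_gen (hS : ∀ s ∈ S, s ^ p = 1) (hc : p = 2 → ∀ s ∈ S, ∀ t ∈ S, sg s = -1 → sg t = -1 → s * t = t * s) :
    closure {x : X | (x ∈ closure S ∧ sg x = 1) ∧ x ^ p = 1} = closure S ⊓ sg.ker := by
  apply le_antisymm
  · rw [closure_le]
    rintro x ⟨h1, -⟩
    exact h1
  set E := closure {x : X | (x ∈ closure S ∧ sg x = 1) ∧ x ^ p = 1} with hE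
  have hEle : E ≤ closure S ⊓ sg.ker := by
    rw [hE, closure_le]
    rintro x ⟨h1, -⟩
    exact h1
  by_cases hodd : ∃ t ∈ S, sg t = -1
  swap
  · have h1 : closure S ≤ E := by
      rw [closure_le]
      intro s hs
      apply Subgroup.subset_closure
      refine ⟨⟨Subgroup.subset_closure hs, ?_⟩, hS s hs⟩
      rcases Int.units_eq_one_or (sg s) with h2 | h2
      · exact h2
      · exact absurd ⟨s, hs, h2⟩ hodd
    exact inf_le_left.trans h1
  obtain ⟨t, ht, hts⟩ := hodd
  have hp2 : p = 2 := by
    by_contra hne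
    rw [odd_case sg hne (hS t ht)] at hts
    exact absurd hts (by decide)
  subst hp2
  have hc := hc rfl
  have hnorm : ∀ y ∈ closure S, ∀ x ∈ E, y * x * y⁻¹ ∈ E := by
    intro y hy x hx
    rw [hE] at hx
    induction hx using closure_induction with
    | mem z hz =>
      apply Subgroup.subset_closure
      refine ⟨⟨mul_mem (mul_mem hy hz.1.1) (inv_mem hy), ?_⟩, ?_⟩
      · rw [map_mul, map_mul, map_inv, hz.1.2, mul_one, mul_inv_cancel]
      · rw [conj_pow, hz.2, mul_one, mul_inv_cancel]
    | one => rw [mul_one, mul_inv_cancel]; exact one_mem _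
    | mul a b _ _ ha hb =>
      have : y * (a * b) * y⁻¹ = (y * a * y⁻¹) * (y * b * y⁻¹) := by group
      rw [this]; exact mul_mem ha hb
    | inv a _ ha =>
      have : y * a⁻¹ * y⁻¹ = (y * a * y⁻¹)⁻¹ := by group
      rw [this]; exact inv_mem ha
  have htt : t * t = 1 := by rw [← pow_two]; exact hS t ht
  have htinv : t⁻¹ = t := inv_eq_of_mul_eq_one_left htt
  have hst : ∀ s ∈ S, sg s = -1 → s * t ∈ E := by
    intro s hs hs1
    apply Subgroup.subset_closure
    refine ⟨⟨mul_mem (Subgroup.subset_closure hs) (Subgroup.subset_closure ht), ?_⟩, ?_⟩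
    · rw [map_mul, hs1, hts]; decide
    · have : (s * t) ^ 2 = s ^ 2 * t ^ 2 := (show Commute s t from hc s hs t ht hs1 hts).mul_pow 2
      rw [this, hS s hs, hS t ht, one_mul]
  have key : ∀ x ∈ closure S, x ∈ E ∨ x * t ∈ E := by
    intro x hx
    induction hx using closure_induction_left with
    | one => left; exact one_mem _
    | mul_left s hs y hy ih =>
      rcases Int.units_eq_one_or (sg s) with h2 | h2
      · have hsE : s ∈ E := Subgroup.subset_closure ⟨⟨Subgroup.subset_closure hs, h2⟩, hS s hs⟩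
        rcases ih with ih | ih
        · left; exact mul_mem hsE ih
        · right; rw [mul_assoc]; exact mul_mem hsE ih
      · rcases ih with ih | ih
        · right
          have : s * y * t = (s * t) * (t * y * t⁻¹) := by
            rw [htinv]
            calc s * y * t = s * (t * t) * y * t := by rw [htt, mul_one]
              _ = _ := by group
          rw [this]
          exact mul_mem (hst s hs h2) (hnorm t (Subgroup.subset_closure ht) y ih)
        · left
          have : s * y = (s * t) * (t * (y * t) * t⁻¹) := by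
            calc s * y = s * (t * t) * y * (t * t⁻¹) := by rw [htt, mul_one, mul_inv_cancel, mul_one]
              _ = _ := by group
          rw [this]
          exact mul_mem (hst s hs h2) (hnorm t (Subgroup.subset_closure ht) _ ih)
    | inv_mul_cancel s hs y hy ih =>
      have hsinv : s⁻¹ = s := by
        apply inv_eq_of_mul_eq_one_left
        rw [← pow_two]; exact hS s hs
      rw [hsinv]
      rcases Int.units_eq_one_or (sg s) with h2 | h2
      · have hsE : s ∈ E := Subgroup.subset_closure ⟨⟨Subgroup.subset_closure hs, h2⟩, hS s hs⟩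
        rcases ih with ih | ih
        · left; exact mul_mem hsE ih
        · right; rw [mul_assoc]; exact mul_mem hsE ih
      · rcases ih with ih | ih
        · right
          have : s * y * t = (s * t) * (t * y * t⁻¹) := by
            rw [htinv]
            calc s * y * t = s * (t * t) * y * t := by rw [htt, mul_one]
              _ = _ := by group
          rw [this]
          exact mul_mem (hst s hs h2) (hnorm t (Subgroup.subset_closure ht) y ih)
        · left
          have : s * y = (s * t) * (t * (y * t) * t⁻¹) := by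
            calc s * y = s * (t * t) * y * (t * t⁻¹) := by rw [htt, mul_one, mul_inv_cancel, mul_one]
              _ = _ := by group
          rw [this]
          exact mul_mem (hst s hs h2) (hnorm t (Subgroup.subset_closure ht) _ ih)
  rintro x ⟨hx1, hx2⟩
  rcases key x hx1 with h | h
  · exact h
  · exfalso
    have h3 : sg (x * t) = 1 := (hEle h).2
    have hx2' : sg x = 1 := hx2
    rw [map_mul, hx2', hts] at h3
    exact absurd h3 (by decide)

end Sgn

/-- the inductive statement -/
def Good (p : ℕ) (X : Type) [Fintype X] [DecidableEq X] : Prop :=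
  ∃ S : Set (Perm X), (∀ s ∈ S, s ^ p = 1) ∧ IsPGroup p (closure S) ∧
    p ^ padicValNat p (Fintype.card X).factorial ≤ Nat.card (closure S) ∧
    (p = 2 → ∀ s ∈ S, ∀ t ∈ S, Perm.sign s = -1 → Perm.sign t = -1 → s * t = t * s)

theorem Good.embed {p : ℕ} [hp : Fact p.Prime] {Y X : Type} [Fintype Y] [DecidableEq Y] [Fintype X] [DecidableEq X] (h : Good p Y)
    (f : Perm Y →* Perm X) (hf : Function.Injective f) (hs : ∀ y, Perm.sign (f y) = Perm.sign y)
    (hc : padicValNat p (Fintype.card X).factorial = padicValNat p (Fintype.card Y).factorial) : Good p X := by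
  obtain ⟨S, h1, h2, h3, h4⟩ := h
  refine ⟨f '' S, ?_, ?_, ?_, ?_⟩
  · rintro _ ⟨s, hs, rfl⟩
    rw [← map_pow, h1 s hs, map_one]
  · rw [← MonoidHom.map_closure]
    exact h2.map f
  · rw [← MonoidHom.map_closure, hc]
    rw [Nat.card_congr ((closure S).equivMapOfInjective f hf).toEquiv.symm]
    exact h3
  · rintro hp2 _ ⟨s, hs', rfl⟩ _ ⟨t, ht', rfl⟩ hs1 ht1
    rw [hs] at hs1 ht1
    rw [← map_mul, h4 hp2 s hs' t ht' hs1 ht1, map_mul]

section Wr
variable (p m : ℕ) [hp : Fact p.Prime]

/-- translations in the fibres -/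
def trA : (Fin m → Multiplicative (ZMod p)) →* Perm (Fin m × ZMod p) where
  toFun f := prodCongrRight (fun i => Equiv.addRight (f i).toAdd)
  map_one' := by
    ext ⟨i, x⟩ <;> simp
  map_mul' f g := by
    apply Equiv.ext
    rintro ⟨i, x⟩
    change (i, x + (f i * g i).toAdd) = (i, x + (g i).toAdd + (f i).toAdd)
    rw [toAdd_mul, add_comm (f i).toAdd, add_assoc]

/-- permutations of the blocks -/
def blB : Perm (Fin m) →* Perm (Fin m × ZMod p) where
  toFun π := prodCongr π (Equiv.refl _)
  map_one' := by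
    apply Equiv.ext
    rintro ⟨i, x⟩; rfl
  map_mul' π π' := by
    apply Equiv.ext
    rintro ⟨i, x⟩; rfl

theorem trA_apply (f : Fin m → Multiplicative (ZMod p)) (i : Fin m) (x : ZMod p) : trA p m f (i, x) = (i, x + (f i).toAdd) := rfl
theorem blB_apply (π : Perm (Fin m)) (i : Fin m) (x : ZMod p) : blB p m π (i, x) = (π i, x) := rfl

theorem trA_pow (f : Fin m → Multiplicative (ZMod p)) : (trA p m f) ^ p = 1 := by
  rw [← map_pow]
  have : f ^ p = 1 := by
    funext i
    rw [Pi.pow_apply, Pi.one_apply]
    have h1 : p • (f i).toAdd = 0 := by rw [nsmul_eq_mul, ZMod.natCast_self, zero_mul]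
    exact h1
  rw [this, map_one]

theorem conj_BA (π : Perm (Fin m)) (f : Fin m → Multiplicative (ZMod p)) :
    blB p m π * trA p m f * (blB p m π)⁻¹ = trA p m (fun i => f (π⁻¹ i)) := by
  rw [mul_inv_eq_iff_eq_mul]
  apply Equiv.ext
  rintro ⟨i, x⟩
  have h1 : π⁻¹ (π i) = i := by rw [← Perm.mul_apply, inv_mul_cancel]; rfl
  rw [Perm.mul_apply, Perm.mul_apply, trA_apply, blB_apply, blB_apply, trA_apply, h1]

theorem sign_blB (h2 : p = 2) (π : Perm (Fin m)) : Perm.sign (blB p m π) = 1 := by
  subst h2
  have h1 : blB 2 m π = prodCongrLeft (fun _ : ZMod 2 => π) := rfl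
  rw [h1, Perm.sign_prodCongrLeft, Finset.prod_const, Finset.card_univ, ZMod.card]
  exact Int.units_sq _

theorem Good.wreath (h : Good p (Fin m)) : Good p (Fin m × ZMod p) := by
  classical
  obtain ⟨S, h1, h2, h3, h4⟩ := h
  set T : Set (Perm (Fin m × ZMod p)) := ((trA p m).range : Set _) ∪ blB p m '' S with hT
  have hcl : closure T = (trA p m).range ⊔ (closure S).map (blB p m) := by
    rw [hT, Subgroup.closure_union, MonoidHom.map_closure, Subgroup.closure_eq]
  refine ⟨T, ?_, ?_, ?_, ?_⟩
  · rintro s (⟨f, rfl⟩ | ⟨s, hs, rfl⟩)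
    · exact trA_pow p m f
    · rw [← map_pow, h1 s hs, map_one]
  · rw [hcl, sup_comm]
    apply IsPGroup.to_sup_of_normal_right' (h2.map (blB p m))
    · rintro ⟨_, f, rfl⟩
      refine ⟨1, ?_⟩
      rw [pow_one]
      exact Subtype.ext (trA_pow p m f)
    · rintro _ ⟨π, -, rfl⟩
      rw [Subgroup.mem_normalizer_iff]
      intro g
      constructor
      · rintro ⟨f, rfl⟩
        rw [conj_BA]; exact ⟨_, rfl⟩
      · rintro ⟨f, hf⟩
        have h5 : g = blB p m π⁻¹ * trA p m f * (blB p m π⁻¹)⁻¹ := by
          rw [hf, map_inv]; group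
        rw [h5, conj_BA]; exact ⟨_, rfl⟩
  · let F : (Fin m → Multiplicative (ZMod p)) × closure S → closure T := fun x =>
      ⟨trA p m x.1 * blB p m (x.2 : Perm (Fin m)), by
        rw [hcl]
        exact mul_mem (Subgroup.mem_sup_left ⟨_, rfl⟩) (Subgroup.mem_sup_right ⟨_, x.2.2, rfl⟩)⟩
    have hF : Function.Injective F := by
      rintro ⟨f, ⟨π, hπ⟩⟩ ⟨f', ⟨π', hπ'⟩⟩ h
      have h5 : ∀ i x, trA p m f (blB p m π (i, x)) = trA p m f' (blB p m π' (i, x)) := fun i x =>
        DFunLike.congr_fun (congrArg Subtype.val h) (i, x)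
      simp only [blB_apply, trA_apply] at h5
      have h6 : π = π' := Equiv.ext fun i => congrArg Prod.fst (h5 i 0)
      subst h6
      have h7 : f = f' := by
        funext j
        have h8 := congrArg Prod.snd (h5 (π⁻¹ j) 0)
        have h9 : π (π⁻¹ j) = j := by rw [← Perm.mul_apply, mul_inv_cancel]; rfl
        simp only [zero_add, h9] at h8
        exact h8
      subst h7
      rfl
    have h5 := Nat.card_le_card_of_injective F hF
    refine le_trans ?_ h5
    rw [Nat.card_prod, Nat.card_fun]
    have h6 : Nat.card (Multiplicative (ZMod p)) = p := by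
      rw [Nat.card_congr Multiplicative.toAdd, Nat.card_zmod]
    rw [h6, Nat.card_fin, Fintype.card_prod, Fintype.card_fin, ZMod.card, mul_comm m p, padicValNat_factorial_mul, pow_add, mul_comm]
    rw [Fintype.card_fin] at h3
    exact Nat.mul_le_mul_left _ h3
  · rintro hp2 s (⟨f, rfl⟩ | ⟨s, hs, rfl⟩) t (⟨g, rfl⟩ | ⟨t, ht, rfl⟩) hs1 ht1
    · rw [← map_mul, ← map_mul, mul_comm]
    · rw [sign_blB p m hp2] at ht1; exact absurd ht1 (by decide)
    · rw [sign_blB p m hp2] at hs1; exact absurd hs1 (by decide)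
    · rw [sign_blB p m hp2] at hs1; exact absurd hs1 (by decide)

end Wr

theorem good_all (p : ℕ) [hp : Fact p.Prime] (n : ℕ) : Good p (Fin n) := by
  classical
  induction n using Nat.strong_induction_on with
  | _ n ih =>
    rcases lt_or_ge n p with hlt | hge
    · refine ⟨∅, fun s hs => absurd hs (Set.notMem_empty s), ?_, ?_, fun _ s hs => absurd hs (Set.notMem_empty s)⟩
      · rw [Subgroup.closure_empty]; exact IsPGroup.of_bot
      · rw [Fintype.card_fin, ← padicValNat_mul_div_factorial n, Nat.div_eq_of_lt hlt, mul_zero, Nat.factorial_zero, padicValNat.one, pow_zero]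
        exact Nat.card_pos
    · have hm : n / p < n := Nat.div_lt_self (lt_of_lt_of_le hp.out.pos hge) hp.out.one_lt
      have h1 := (ih (n / p) hm).wreath p (n / p)
      have h2 : Fintype.card (Fin (n / p) × ZMod p) ≤ Fintype.card (Fin n) := by
        rw [Fintype.card_prod, Fintype.card_fin, Fintype.card_fin, ZMod.card]
        exact Nat.div_mul_le_self n p
      obtain ⟨ι⟩ := Function.Embedding.nonempty_of_card_le h2
      let e : (Fin (n / p) × ZMod p) ≃ {x : Fin n // x ∈ Set.range ι} := Equiv.ofInjective ι ι.injective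
      refine h1.embed (Perm.extendDomainHom e) (Perm.extendDomainHom_injective e) (fun y => Perm.sign_extendDomain y e) ?_
      rw [Fintype.card_prod, Fintype.card_fin, Fintype.card_fin, ZMod.card, mul_comm, padicValNat_mul_div_factorial]

/-- all Sylow subgroups of the symmetric group -/
theorem sylow_gen (p : ℕ) [hp : Fact p.Prime] (n : ℕ) (P : Sylow p (Perm (Fin n))) :
    ∃ S : Set (Perm (Fin n)), closure S = (P : Subgroup (Perm (Fin n))) ∧ (∀ s ∈ S, s ^ p = 1) ∧
      (p = 2 → ∀ s ∈ S, ∀ t ∈ S, Perm.sign s = -1 → Perm.sign t = -1 → s * t = t * s) := by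
  classical
  obtain ⟨S, h1, h2, h3, h4⟩ := good_all p n
  have hcard : Nat.card (Perm (Fin n)) = n.factorial := by
    rw [Nat.card_eq_fintype_card, Fintype.card_perm, Fintype.card_fin]
  have h5 : Nat.card (closure S) = p ^ (Nat.card (Perm (Fin n))).factorization p := by
    obtain ⟨k, hk⟩ := IsPGroup.iff_card.1 h2
    have h6 : p ^ k ∣ n.factorial := by rw [← hk, ← hcard]; exact Subgroup.card_subgroup_dvd_card _
    have h7 : k ≤ padicValNat p n.factorial := (padicValNat_dvd_iff_le (Nat.factorial_ne_zero n)).1 h6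
    rw [Fintype.card_fin, hk] at h3
    have h8 : padicValNat p n.factorial ≤ k := (Nat.pow_le_pow_iff_right hp.out.one_lt).1 h3
    rw [hk, hcard, Nat.factorization_def _ hp.out]
    congr 1
    omega
  let P₀ : Sylow p (Perm (Fin n)) := Sylow.ofCard (closure S) h5
  obtain ⟨g, hg⟩ := MulAction.exists_smul_eq (Perm (Fin n)) P₀ P
  have hP : (P : Subgroup (Perm (Fin n))) = (closure S).map (MulAut.conj g).toMonoidHom := by
    rw [← hg]; rfl
  refine ⟨(MulAut.conj g).toMonoidHom '' S, ?_, ?_, ?_⟩
  · rw [hP, MonoidHom.map_closure]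
  · rintro _ ⟨s, hs, rfl⟩
    rw [← map_pow, h1 s hs, map_one]
  · rintro hp2 _ ⟨s, hs, rfl⟩ _ ⟨t, ht, rfl⟩ hs1 ht1
    have hsg : ∀ y : Perm (Fin n), Perm.sign ((MulAut.conj g).toMonoidHom y) = Perm.sign y := by
      intro y
      change Perm.sign (g * y * g⁻¹) = _
      rw [map_mul, map_mul, map_inv, mul_comm (Perm.sign g), mul_inv_cancel_right]
    rw [hsg] at hs1 ht1
    rw [← map_mul, h4 hp2 s hs t ht hs1 ht1, map_mul]

theorem sym (p : ℕ) [hp : Fact p.Prime] (n : ℕ) (P : Sylow p (Perm (Fin n))) (x : (P : Subgroup (Perm (Fin n)))) :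
    x ^ p ∈ commutator (P : Subgroup (Perm (Fin n))) := by
  obtain ⟨S, h1, h2, -⟩ := sylow_gen p n P
  apply pow_mem_commutator
  apply closure_eq_top_of_inj (P : Subgroup (Perm (Fin n))).subtype (Subgroup.subtype_injective _) h2
  rw [h1, Subgroup.range_subtype]

theorem alt (p : ℕ) [hp : Fact p.Prime] (n : ℕ) (Q : Sylow p (alternatingGroup (Fin n))) (x : (Q : Subgroup (alternatingGroup (Fin n)))) :
    x ^ p ∈ commutator (Q : Subgroup (alternatingGroup (Fin n))) := by
  classical
  have hQp : IsPGroup p ((Q : Subgroup (alternatingGroup (Fin n))).map (alternatingGroup (Fin n)).subtype) := Q.2.map _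
  obtain ⟨P, hP⟩ := hQp.exists_le_sylow
  obtain ⟨S, h1, h2, h3⟩ := sylow_gen p n P
  have h4 := ker_gen (Perm.sign : Perm (Fin n) →* ℤˣ) (p := p) h2 h3
  rw [h1] at h4
  have h5 : (Q : Subgroup (alternatingGroup (Fin n))).map (alternatingGroup (Fin n)).subtype = (P : Subgroup (Perm (Fin n))) ⊓ (Perm.sign : Perm (Fin n) →* ℤˣ).ker := by
    apply le_antisymm
    · apply le_inf hP
      rintro _ ⟨y, -, rfl⟩
      exact y.2
    · have h6 : IsPGroup p ((P : Subgroup (Perm (Fin n))).subgroupOf (alternatingGroup (Fin n))) := by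
        apply IsPGroup.of_injective P.2 (Subgroup.subtype _ |>.comp (Subgroup.subtype _) |>.codRestrict _ (fun y => y.2))
        intro a b hab
        apply Subtype.ext
        apply Subtype.ext
        exact congrArg (fun z : (P : Subgroup (Perm (Fin n))) => (z : Perm (Fin n))) hab
      have h7 : (Q : Subgroup (alternatingGroup (Fin n))) ≤ (P : Subgroup (Perm (Fin n))).subgroupOf (alternatingGroup (Fin n)) := by
        intro y hy
        rw [Subgroup.mem_subgroupOf]
        exact hP ⟨y, hy, rfl⟩
      have h8 := Q.3 h6 h7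
      rintro y ⟨hy1, hy2⟩
      refine ⟨⟨y, hy2⟩, ?_, rfl⟩
      change (⟨y, hy2⟩ : alternatingGroup (Fin n)) ∈ (Q : Subgroup (alternatingGroup (Fin n)))
      rw [← h8]
      exact hy1
  apply pow_mem_commutator
  apply closure_eq_top_of_inj ((alternatingGroup (Fin n)).subtype.comp (Q : Subgroup (alternatingGroup (Fin n))).subtype)
    (S := {x : Perm (Fin n) | (x ∈ (P : Subgroup (Perm (Fin n))) ∧ Perm.sign x = 1) ∧ x ^ p = 1})
  · exact (Subgroup.subtype_injective _).comp (Subgroup.subtype_injective _)
  · intro s hs; exact hs.2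
  · rw [h4, ← h5, MonoidHom.range_comp, Subgroup.range_subtype]

end CfsgLib.SylSym19
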