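import Cfsg.Agent.EqBase
import Cfsg.Agent.LibForms27
import Cfsg.Agent.LibH22Sp3

set_option autoImplicit false

/-! Elements of `Sp_{2n}(F)` and `PSp_{2n}(F)` from commutative algebras with involution. -/

namespace CfsgLib.SympAlg27

open Polynomial

/-- a commutative algebra with involution and a nondegenerate functional which is odd for the involution -/
structure SympAlg (F : Type*) [Field F] (E : Type*) [CommRing E] [Algebra F E] where
  star : E →ₐ[F] E
  inv : ∀ x, star (star x) = x
  lam : E →ₗ[F] F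
  anti : ∀ x, lam (star x) = - lam x
  nd : ∀ x : E, x ≠ 0 → ∃ y, lam (x * y) ≠ 0

variable {F : Type*} [Field F]

/-- product -/
def SympAlg.prod {E E' : Type*} [CommRing E] [Algebra F E] [CommRing E'] [Algebra F E']
    (S : SympAlg F E) (S' : SympAlg F E') : SympAlg F (E × E') where
  star := AlgHom.prodMap S.star S'.star
  inv := fun x => Prod.ext (S.inv x.1) (S'.inv x.2)
  lam := S.lam.comp (LinearMap.fst F E E') + S'.lam.comp (LinearMap.snd F E E')
  anti := fun x => by
    show S.lam (S.star x.1) + S'.lam (S'.star x.2) = -(S.lam x.1 + S'.lam x.2)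
    rw [S.anti, S'.anti]; ring
  nd := fun x hx => by
    by_cases h : x.1 = 0
    · have h2 : x.2 ≠ 0 := fun h2 => hx (Prod.ext h h2)
      obtain ⟨y, hy⟩ := S'.nd x.2 h2
      exact ⟨(0, y), by simpa using hy⟩
    · obtain ⟨y, hy⟩ := S.nd x.1 h
      exact ⟨(y, 0), by simpa using hy⟩

/-- The Gram form. -/
def SympAlg.form {E : Type*} [CommRing E] [Algebra F E] (S : SympAlg F E) : LinearMap.BilinForm F E :=
  LinearMap.mk₂ F (fun x y => S.lam (x * S.star y))
    (fun x x' y => by rw [add_mul, map_add]) (fun c x y => by rw [smul_mul_assoc, map_smul])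
    (fun x y y' => by rw [map_add, mul_add, map_add]) (fun c x y => by rw [map_smul, mul_smul_comm, map_smul])

theorem SympAlg.form_apply {E : Type*} [CommRing E] [Algebra F E] (S : SympAlg F E) (x y : E) :
    S.form x y = S.lam (x * S.star y) := rfl

theorem SympAlg.isAlt {E : Type*} [CommRing E] [Algebra F E] (S : SympAlg F E) (h2 : (2 : F) ≠ 0) :
    S.form.IsAlt := by
  intro x
  rw [S.form_apply]
  have h1 := S.anti (x * S.star x)
  rw [map_mul, S.inv, mul_comm (S.star x)] at h1
  have h3 : (2 : F) * S.lam (x * S.star x) = 0 := by linear_combination h1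
  exact (mul_eq_zero.mp h3).resolve_left h2

theorem SympAlg.nondeg {E : Type*} [CommRing E] [Algebra F E] (S : SympAlg F E) (x : E) (hx : x ≠ 0) :
    ∃ y, S.form x y ≠ 0 := by
  obtain ⟨y, hy⟩ := S.nd x hx
  refine ⟨S.star y, ?_⟩
  rwa [S.form_apply, S.inv]

/-- Elements of norm one give symplectic matrices. -/
theorem SympAlg.exists_sp {E : Type*} [CommRing E] [Algebra F E] [FiniteDimensional F E]
    (S : SympAlg F E) (h2 : (2 : F) ≠ 0) {n : ℕ} (hn : 1 ≤ n) (hE : Module.finrank F E = 2 * n) (u : E)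
    (hu : u * S.star u = 1) :
    ∃ g : Matrix.symplecticGroup (Fin n) F, (∀ k : ℕ, g ^ k = 1 ↔ u ^ k = 1) ∧
      ∀ k : ℕ, (QuotientGroup.mk g : Cfsg.PSp n F) ^ k = 1 ↔ (u ^ k = 1 ∨ u ^ k = -1) := by
  obtain ⟨m, b, hm, h3, h4, h5, h6⟩ := CfsgLib.Forms27.exists_symplectic_basis S.form (S.isAlt h2) S.nondeg
  obtain rfl : n = m := by omega
  have hmem : Algebra.leftMulMatrix b u ∈ Matrix.symplecticGroup (Fin n) F := by
    have := (CfsgLib.Forms27.toMatrix_mem_symplectic_iff S.form b h3 h4 h5 h6 (Algebra.lmul F E u)).2 (by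
      intro v w
      rw [S.form_apply, S.form_apply]
      have : (Algebra.lmul F E u) v * S.star ((Algebra.lmul F E u) w) = (u * S.star u) * (v * S.star w) := by
        show u * v * S.star (u * w) = _
        rw [map_mul]; ring
      rw [this, hu, one_mul])
    exact this
  refine ⟨⟨_, hmem⟩, ?_, ?_⟩
  · intro k
    rw [← Subtype.coe_inj]
    show (Algebra.leftMulMatrix b u) ^ k = 1 ↔ _
    rw [← map_pow, ← map_one (Algebra.leftMulMatrix b)]
    exact (Algebra.leftMulMatrix_injective b).eq_iff
  · intro k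
    rw [← QuotientGroup.mk_pow, QuotientGroup.eq_one_iff]
    constructor
    · intro h
      obtain ⟨a, ha⟩ := Cfsg.Agent.H22.center_sp_scalar h
      have ha2 : a ^ 2 = 1 := by
        rw [← Cfsg.Agent.H22.smul_one_mem_sp_iff hn, ← ha]
        exact Subtype.mem _
      have h7 : (Algebra.leftMulMatrix b u) ^ k = a • 1 := ha
      rcases sq_eq_one_iff_of_ne_zero' ha2 with rfl | rfl
      · left
        rw [one_smul, ← map_pow, ← map_one (Algebra.leftMulMatrix b)] at h7
        exact Algebra.leftMulMatrix_injective b h7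
      · right
        rw [neg_smul, one_smul, ← map_pow, ← map_one (Algebra.leftMulMatrix b), ← map_neg] at h7
        exact Algebra.leftMulMatrix_injective b h7
    · rintro (h | h)
      · have : (⟨_, hmem⟩ : Matrix.symplecticGroup (Fin n) F) ^ k = 1 := by
          apply Subtype.ext
          show (Algebra.leftMulMatrix b u) ^ k = 1
          rw [← map_pow, h, map_one]
        rw [this]; exact Subgroup.one_mem _
      · rw [Subgroup.mem_center_iff]
        intro y
        apply Subtype.ext
        show (y : Matrix (Fin n ⊕ Fin n) (Fin n ⊕ Fin n) F) * (Algebra.leftMulMatrix b u) ^ k =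
          (Algebra.leftMulMatrix b u) ^ k * y
        rw [← map_pow, h, map_neg, map_one]
        simp
where
  sq_eq_one_iff_of_ne_zero' {a : F} (h : a ^ 2 = 1) : a = 1 ∨ a = -1 := by
    exact sq_eq_one_iff_of_side_cond h
  sq_eq_one_iff_of_side_cond {a : F} (h : a ^ 2 = 1) : a = 1 ∨ a = -1 := by
    have : (a - 1) * (a + 1) = 0 := by linear_combination h
    rcases mul_eq_zero.mp this with h | h
    · exact Or.inl (sub_eq_zero.mp h)
    · exact Or.inr (eq_neg_of_add_eq_zero_left h)

/-- central elements of `Sp` -/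
theorem mk_eq_one_iff {n : ℕ} (hn : 1 ≤ n) (g : Matrix.symplecticGroup (Fin n) F) :
    (QuotientGroup.mk g : Cfsg.PSp n F) = 1 ↔
      ((g : Matrix (Fin n ⊕ Fin n) (Fin n ⊕ Fin n) F) = 1 ∨ (g : Matrix (Fin n ⊕ Fin n) (Fin n ⊕ Fin n) F) = -1) := by
  rw [QuotientGroup.eq_one_iff]
  constructor
  · intro h
    obtain ⟨a, ha⟩ := Cfsg.Agent.H22.center_sp_scalar h
    have ha2 : a ^ 2 = 1 := by
      rw [← Cfsg.Agent.H22.smul_one_mem_sp_iff hn, ← ha]
      exact Subtype.mem _
    have : (a - 1) * (a + 1) = 0 := by linear_combination ha2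
    rcases mul_eq_zero.mp this with h | h
    · left; rw [ha, sub_eq_zero.mp h, one_smul]
    · right; rw [ha, eq_neg_of_add_eq_zero_left h, neg_smul, one_smul]
  · rintro (h | h)
    · have : g = 1 := Subtype.ext h
      rw [this]; exact Subgroup.one_mem _
    · rw [Subgroup.mem_center_iff]
      intro y
      apply Subtype.ext
      show (y : Matrix (Fin n ⊕ Fin n) (Fin n ⊕ Fin n) F) * g = g * y
      rw [h]; simp

end CfsgLib.SympAlg27

namespace CfsgLib.SympAlg27

open Polynomial

section Torus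

variable {F : Type*} [Field F]

/-- split torus algebra -/
noncomputable def splitAlg (K : Type*) [Field K] [Algebra F K] [FiniteDimensional F K] [Algebra.IsSeparable F K] :
    SympAlg F (K × K) where
  star := (AlgHom.snd F K K).prod (AlgHom.fst F K K)
  inv := fun x => rfl
  lam := (Algebra.trace F K).comp (LinearMap.fst F K K) - (Algebra.trace F K).comp (LinearMap.snd F K K)
  anti := fun x => by
    show Algebra.trace F K x.2 - Algebra.trace F K x.1 = -(Algebra.trace F K x.1 - Algebra.trace F K x.2)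
    ring
  nd := fun x hx => by
    obtain ⟨c, hc⟩ := Algebra.trace_surjective F K 1
    by_cases h : x.1 = 0
    · have h2 : x.2 ≠ 0 := fun h2 => hx (Prod.ext h h2)
      refine ⟨(0, x.2⁻¹ * c), ?_⟩
      show Algebra.trace F K (x.1 * 0) - Algebra.trace F K (x.2 * (x.2⁻¹ * c)) ≠ 0
      rw [mul_zero, map_zero, mul_inv_cancel_left₀ h2, hc, zero_sub]
      exact neg_ne_zero.mpr one_ne_zero
    · refine ⟨(x.1⁻¹ * c, 0), ?_⟩
      show Algebra.trace F K (x.1 * (x.1⁻¹ * c)) - Algebra.trace F K (x.2 * 0) ≠ 0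
      rw [mul_zero, map_zero, mul_inv_cancel_left₀ h, hc, sub_zero]
      exact one_ne_zero

/-- non-split torus algebra -/
noncomputable def nonsplitAlg (L : Type*) [Field L] [Algebra F L] [FiniteDimensional F L] [Algebra.IsSeparable F L]
    (s : L →ₐ[F] L) (hs : ∀ x, s (s x) = x) (c : L) (hc : c ≠ 0) (hsc : s c = -c) : SympAlg F L where
  star := s
  inv := hs
  lam := (Algebra.trace F L).comp (LinearMap.mulLeft F c)
  anti := fun x => by
    show Algebra.trace F L (c * s x) = - Algebra.trace F L (c * x)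
    let e : L ≃ₐ[F] L := AlgEquiv.ofAlgHom s s (by ext x; exact hs x) (by ext x; exact hs x)
    have h1 : c * s x = e (-(c * x)) := by
      show _ = s _
      rw [map_neg, map_mul, hsc]; ring
    rw [h1, Algebra.trace_eq_of_algEquiv, map_neg]
  nd := fun x hx => by
    obtain ⟨c', hc'⟩ := Algebra.trace_surjective F L 1
    refine ⟨x⁻¹ * (c⁻¹ * c'), ?_⟩
    show Algebra.trace F L (c * (x * (x⁻¹ * (c⁻¹ * c')))) ≠ 0
    rw [mul_inv_cancel_left₀ hx, mul_inv_cancel_left₀ hc, hc']
    exact one_ne_zero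

theorem exists_orderOf_dvd {G : Type*} [Group G] [Finite G] (g : G) {m : ℕ} (hm : m ∣ orderOf g) :
    ∃ h : G, orderOf h = m := by
  obtain ⟨r, hr⟩ := hm
  have hr0 : r ≠ 0 := by rintro rfl; exact (orderOf_pos g).ne' (by rw [hr, mul_zero])
  refine ⟨g ^ r, ?_⟩
  rw [orderOf_pow_of_dvd hr0 (by rw [hr]; exact dvd_mul_left _ _), hr]
  exact Nat.mul_div_cancel _ (Nat.pos_of_ne_zero hr0)

theorem exists_unit_orderOf {K : Type*} [Field K] [Finite K] {N : ℕ} (hN : N ∣ Nat.card K - 1) :
    ∃ x : Kˣ, orderOf x = N := by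
  obtain ⟨g, hg⟩ := IsCyclic.exists_generator (α := Kˣ)
  apply exists_orderOf_dvd g
  rw [orderOf_eq_card_of_forall_mem_zpowers hg, Nat.card_units]
  exact hN

/-- The torus algebras of dimension `2d` and their elements of order `N ∣ q ^ d ± 1`. -/
theorem exists_torus_alg [Fintype F] (p : ℕ) [Fact p.Prime] [CharP F p] {d : ℕ} (hd : 1 ≤ d) {N : ℕ}
    (hN : N ∣ Fintype.card F ^ d - 1 ∨ N ∣ Fintype.card F ^ d + 1) :
    ∃ (E : Type) (_ : CommRing E) (_ : Algebra F E) (_ : FiniteDimensional F E) (S : SympAlg F E) (u : E),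
      Module.finrank F E = 2 * d ∧ u * S.star u = 1 ∧ (∀ k : ℕ, u ^ k = 1 ↔ N ∣ k) ∧
        (∀ k : ℕ, (u ^ k) ^ 2 = 1 → u ^ k = 1 ∨ u ^ k = -1) := by
  have hsq : ∀ {K : Type} [Field K] (x : K), x ^ 2 = 1 → x = 1 ∨ x = -1 := by
    intro K _ x hx
    have : (x - 1) * (x + 1) = 0 := by linear_combination hx
    rcases mul_eq_zero.mp this with h | h
    · exact Or.inl (sub_eq_zero.mp h)
    · exact Or.inr (eq_neg_of_add_eq_zero_left h)
  rcases hN with hN | hN
  · haveI : NeZero d := ⟨by omega⟩
    let K := FiniteField.Extension F p d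
    have hK : Module.finrank F K = d := FiniteField.finrank_extension F p d
    have hcard : Nat.card K = Fintype.card F ^ d := by
      rw [FiniteField.natCard_extension, Nat.card_eq_fintype_card]
    obtain ⟨x, hx⟩ := exists_unit_orderOf (K := K) (N := N) (by rw [hcard]; exact hN)
    refine ⟨K × K, inferInstance, inferInstance, inferInstance, splitAlg K, ((x : K), ((x⁻¹ : Kˣ) : K)), ?_, ?_, ?_, ?_⟩
    · rw [Module.finrank_prod, hK]; ring
    · show ((x : K) * ((x⁻¹ : Kˣ) : K), ((x⁻¹ : Kˣ) : K) * (x : K)) = (1, 1)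
      rw [Units.mul_inv, Units.inv_mul]
    · intro k
      rw [← hx, orderOf_dvd_iff_pow_eq_one]
      constructor
      · intro h
        have := congrArg Prod.fst h
        ext
        simpa using this
      · intro h
        have h1 : (x : K) ^ k = 1 := by rw [← Units.val_pow_eq_pow_val, h, Units.val_one]
        have h2 : ((x⁻¹ : Kˣ) : K) ^ k = 1 := by rw [← Units.val_pow_eq_pow_val, inv_pow, h, inv_one, Units.val_one]
        exact Prod.ext h1 h2
    · intro k h
      have h1 : ((x : K) ^ k) ^ 2 = 1 := congrArg Prod.fst h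
      have h3 : ∀ y : Kˣ, (y : K) = -1 → ((y⁻¹ : Kˣ) : K) = -1 := by
        intro y hy
        have : y = -1 := by ext; simpa using hy
        rw [this]; simp
      rcases hsq _ h1 with h | h
      · left
        have h2 : x ^ k = 1 := by ext; simpa using h
        refine Prod.ext h ?_
        show ((x⁻¹ : Kˣ) : K) ^ k = 1
        rw [← Units.val_pow_eq_pow_val, inv_pow, h2, inv_one, Units.val_one]
      · right
        refine Prod.ext h ?_
        show ((x⁻¹ : Kˣ) : K) ^ k = -1
        rw [← Units.val_pow_eq_pow_val, inv_pow]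
        apply h3
        simpa using h
  · haveI : NeZero (2 * d) := ⟨by omega⟩
    let L := FiniteField.Extension F p (2 * d)
    have hL : Module.finrank F L = 2 * d := FiniteField.finrank_extension F p (2 * d)
    have hcard : Nat.card L = Fintype.card F ^ (2 * d) := by
      rw [FiniteField.natCard_extension, Nat.card_eq_fintype_card]
    have hpos : 1 < Fintype.card F ^ d := Nat.one_lt_pow (by omega) Fintype.one_lt_card
    have hcard' : Nat.card L - 1 = (Fintype.card F ^ d - 1) * (Fintype.card F ^ d + 1) := by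
      rw [hcard, two_mul, pow_add]
      obtain ⟨a, ha⟩ : ∃ a, Fintype.card F ^ d = a + 1 := ⟨_, (Nat.sub_add_cancel hpos.le).symm⟩
      rw [ha]
      simp only [Nat.add_sub_cancel]
      have : (a + 1) * (a + 1) = a * (a + 1 + 1) + 1 := by ring
      rw [this, Nat.add_sub_cancel]
    obtain ⟨x, hx⟩ := exists_unit_orderOf (K := L) (N := N) (by rw [hcard']; exact hN.mul_left _)
    obtain ⟨g, hg⟩ := exists_unit_orderOf (K := L) (N := Nat.card L - 1) dvd_rfl
    obtain ⟨a, hp, ha⟩ := FiniteField.card F p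
    haveI : CharP L p := charP_of_injective_algebraMap (algebraMap F L).injective p
    have hqd : Fintype.card F ^ d = p ^ ((a : ℕ) * d) := by rw [ha, pow_mul]
    let s : L →ₐ[F] L :=
      { toFun := fun x => x ^ (Fintype.card F ^ d)
        map_one' := one_pow _
        map_mul' := fun x y => mul_pow _ _ _
        map_zero' := zero_pow (by omega)
        map_add' := fun x y => by rw [hqd, add_pow_char_pow]
        commutes' := fun r => by rw [← map_pow, FiniteField.pow_card_pow] }
    have hs : ∀ x, s x = x ^ (Fintype.card F ^ d) := fun x => rfl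
    have hss : ∀ x, s (s x) = x := by
      intro x
      rw [hs, hs, ← pow_mul, ← pow_add, ← two_mul, ← hcard]
      haveI := Fintype.ofFinite L
      rw [Nat.card_eq_fintype_card]
      exact FiniteField.pow_card x
    have hc : (g : L) - s g ≠ 0 := by
      intro h
      have h1 : g ^ (Fintype.card F ^ d) = g := by
        ext
        rw [Units.val_pow_eq_pow_val, ← hs]
        exact (sub_eq_zero.mp h).symm
      have h2 : g ^ (Fintype.card F ^ d - 1) = 1 := by
        have h3 : g ^ (Fintype.card F ^ d - 1) * g = g := by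
          rw [← pow_succ, Nat.sub_add_cancel hpos.le, h1]
        exact mul_eq_right.mp h3
      have h3 := orderOf_dvd_of_pow_eq_one h2
      rw [hg, hcard'] at h3
      have := Nat.le_of_dvd (by omega) h3
      obtain ⟨a', ha'⟩ : ∃ a', Fintype.card F ^ d = a' + 2 := ⟨Fintype.card F ^ d - 2, by omega⟩
      rw [ha', show a' + 2 - 1 = a' + 1 by omega] at this
      nlinarith
    have hsc : s ((g : L) - s g) = -((g : L) - s g) := by
      rw [map_sub, hss]; ring
    refine ⟨L, inferInstance, inferInstance, inferInstance, nonsplitAlg L s hss _ hc hsc, (x : L), hL, ?_, ?_, ?_⟩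
    · show (x : L) * (x : L) ^ (Fintype.card F ^ d) = 1
      rw [← pow_succ', ← Units.val_pow_eq_pow_val]
      have : x ^ (Fintype.card F ^ d + 1) = 1 := by
        rw [← orderOf_dvd_iff_pow_eq_one, hx]; exact hN
      rw [this, Units.val_one]
    · intro k
      rw [← hx, orderOf_dvd_iff_pow_eq_one]
      constructor
      · intro h; ext; simpa using h
      · intro h; rw [← Units.val_pow_eq_pow_val, h, Units.val_one]
    · intro k h
      exact hsq _ h

end Torus

section Unip

universe u

variable {F : Type u} [Field F]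

/-- The unipotent algebra `F[ε]/(ε ^ 2k)`. -/
theorem exists_unip_alg (p : ℕ) [Fact p.Prime] [CharP F p] (h2 : (2 : F) ≠ 0) {k : ℕ}
    (hk : 1 ≤ k) (t : ℕ) (ht : 2 * k ≤ p ^ t) (ht' : ∀ s, s < t → p ^ s < 2 * k) :
    ∃ (E : Type u) (_ : CommRing E) (_ : Algebra F E) (_ : FiniteDimensional F E) (S : SympAlg F E) (u : E),
      Nontrivial E ∧ Module.finrank F E = 2 * k ∧ u * S.star u = 1 ∧ orderOf u = p ^ t := by
  let E := AdjoinRoot ((X : F[X]) ^ (2 * k))
  have hmon : ((X : F[X]) ^ (2 * k)).Monic := Polynomial.monic_X_pow _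
  have hdeg : ((X : F[X]) ^ (2 * k)).natDegree = 2 * k := Polynomial.natDegree_X_pow _
  let pb := AdjoinRoot.powerBasis' hmon
  have hdim : pb.dim = 2 * k := by simp [pb, AdjoinRoot.powerBasis', hdeg]
  let b : Module.Basis (Fin (2 * k)) F E := pb.basis.reindex (finCongr hdim)
  let ε : E := AdjoinRoot.root _
  have hb : ∀ i, b i = ε ^ (i : ℕ) := by
    intro i
    simp only [b, Module.Basis.reindex_apply, PowerBasis.coe_basis]
    rfl
  haveI : Nontrivial E := by
    apply AdjoinRoot.nontrivial
    rw [Polynomial.degree_eq_natDegree hmon.ne_zero, hdeg]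
    simp; omega
  haveI : CharP E p := charP_of_injective_algebraMap (algebraMap F E).injective p
  have hε : ∀ j : ℕ, ε ^ j = 0 ↔ 2 * k ≤ j := by
    intro j
    have h1 : ε ^ j = AdjoinRoot.mk _ (X ^ j) := by simp [ε, AdjoinRoot.mk_X]
    rw [h1, AdjoinRoot.mk_eq_zero]
    constructor
    · intro h
      by_contra hk
      have := Polynomial.natDegree_le_of_dvd h (pow_ne_zero _ Polynomial.X_ne_zero)
      rw [Polynomial.natDegree_X_pow, Polynomial.natDegree_X_pow] at this
      omega
    · intro h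
      exact pow_dvd_pow _ h
  have hstar0 : Polynomial.eval₂ (algebraMap F E) (-ε) ((X : F[X]) ^ (2 * k)) = 0 := by
    rw [Polynomial.eval₂_pow, Polynomial.eval₂_X, neg_pow, (hε _).2 le_rfl, mul_zero]
  let s : E →ₐ[F] E := AdjoinRoot.liftAlgHom _ (Algebra.ofId F E) (-ε) hstar0
  have hs : s ε = -ε := AdjoinRoot.liftAlgHom_root _ _ _ _
  have hss : ∀ x, s (s x) = x := by
    have : s.comp s = AlgHom.id F E := by
      apply AdjoinRoot.algHom_ext
      show s (s ε) = ε
      rw [hs, map_neg, hs, neg_neg]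
    intro x
    exact AlgHom.congr_fun this x
  let i0 : Fin (2 * k) := ⟨2 * k - 1, by omega⟩
  let l : E →ₗ[F] F := b.coord i0
  have hl : ∀ j : ℕ, l (ε ^ j) = if j = 2 * k - 1 then 1 else 0 := by
    intro j
    by_cases hj : j < 2 * k
    · have : ε ^ j = b ⟨j, hj⟩ := (hb ⟨j, hj⟩).symm
      rw [this]
      show b.repr (b _) i0 = _
      rw [Module.Basis.repr_self, Finsupp.single_apply]
      simp only [i0, Fin.mk.injEq]
    · rw [(hε j).2 (by omega), map_zero, if_neg (by omega)]
  have hanti : ∀ x, l (s x) = - l x := by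
    have : l.comp s.toLinearMap = -l := by
      apply b.ext
      intro i
      show l (s (b i)) = - l (b i)
      rw [hb, map_pow, hs, neg_pow]
      have : (-1 : E) ^ (i : ℕ) * ε ^ (i : ℕ) = ((-1 : F) ^ (i : ℕ)) • ε ^ (i : ℕ) := by
        rw [Algebra.smul_def, map_pow, map_neg, map_one]
      rw [this, map_smul, hl]
      split_ifs with h
      · have hodd : Odd (i : ℕ) := by rw [h]; exact ⟨k - 1, by omega⟩
        rw [hodd.neg_one_pow]; simp
      · simp
    intro x
    exact LinearMap.congr_fun this x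
  have hnd : ∀ x : E, x ≠ 0 → ∃ y, l (x * y) ≠ 0 := by
    intro x hx
    obtain ⟨i, hi⟩ : ∃ i, b.repr x i ≠ 0 := by
      by_contra hcon
      push Not at hcon
      apply hx
      apply b.repr.injective
      ext i
      rw [hcon i, map_zero]; rfl
    refine ⟨ε ^ (2 * k - 1 - (i : ℕ)), ?_⟩
    have h1 : x * ε ^ (2 * k - 1 - (i : ℕ)) = ∑ j, b.repr x j • ε ^ ((j : ℕ) + (2 * k - 1 - (i : ℕ))) := by
      conv_lhs => rw [← b.sum_repr x, Finset.sum_mul]
      refine Finset.sum_congr rfl fun j _ => ?_
      rw [hb, smul_mul_assoc, ← pow_add]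
    rw [h1, map_sum, Finset.sum_eq_single i]
    · rw [map_smul, hl, if_pos (by have := i.2; omega), smul_eq_mul, mul_one]
      exact hi
    · intro j _ hj
      rw [map_smul, hl, if_neg, smul_zero]
      intro h
      apply hj
      ext
      have := i.2
      omega
    · intro h; exact absurd (Finset.mem_univ _) h
  let S : SympAlg F E := ⟨s, hss, l, hanti, hnd⟩
  have hnil : IsNilpotent ε := ⟨2 * k, (hε _).2 le_rfl⟩
  obtain ⟨v, hv⟩ : IsUnit (1 - ε) := hnil.isUnit_one_sub
  have hv1 : (1 - ε) * ((v⁻¹ : Eˣ) : E) = 1 := by rw [← hv, Units.mul_inv]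
  have hsv : (1 + ε) * s ((v⁻¹ : Eˣ) : E) = 1 := by
    have := congrArg s hv1
    rw [map_mul, map_sub, map_one, hs, sub_neg_eq_add] at this
    exact this
  let u : E := (1 + ε) * ((v⁻¹ : Eˣ) : E)
  have hu1 : u = 1 + (2 : E) * ε * ((v⁻¹ : Eˣ) : E) := by
    show (1 + ε) * ((v⁻¹ : Eˣ) : E) = _
    linear_combination hv1
  have hu : u * s u = 1 := by
    show (1 + ε) * ((v⁻¹ : Eˣ) : E) * s ((1 + ε) * ((v⁻¹ : Eˣ) : E)) = 1
    rw [map_mul, map_add, map_one, hs]
    calc (1 + ε) * ((v⁻¹ : Eˣ) : E) * ((1 + -ε) * s ((v⁻¹ : Eˣ) : E))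
        = ((1 - ε) * ((v⁻¹ : Eˣ) : E)) * ((1 + ε) * s ((v⁻¹ : Eˣ) : E)) := by ring
      _ = 1 := by rw [hv1, hsv, one_mul]
  have h2E : IsUnit (2 : E) := by
    have : (2 : E) = algebraMap F E 2 := by rw [map_ofNat]
    rw [this]
    exact (isUnit_iff_ne_zero.mpr h2).map _
  have hpow : ∀ j : ℕ, u ^ (p ^ j) = 1 ↔ 2 * k ≤ p ^ j := by
    intro j
    rw [hu1, add_pow_char_pow, one_pow, add_eq_left, mul_pow, mul_pow, ← hε]
    have hun : IsUnit (((v⁻¹ : Eˣ) : E) ^ p ^ j) := (Units.isUnit _).pow _
    have h2un : IsUnit ((2 : E) ^ p ^ j) := h2E.pow _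
    constructor
    · intro h
      rw [hun.mul_left_eq_zero, h2un.mul_right_eq_zero] at h
      exact h
    · intro h; rw [h]; ring
  have hfin : Module.finrank F E = 2 * k := by
    rw [Module.finrank_eq_card_basis b, Fintype.card_fin]
  refine ⟨E, inferInstance, inferInstance, Module.Basis.finiteDimensional_of_finite b, S, u, inferInstance, hfin, hu, ?_⟩
  rcases Nat.eq_zero_or_pos t with rfl | htpos
  · rw [pow_zero] at ht
    omega
  · obtain ⟨s', rfl⟩ : ∃ s, t = s + 1 := ⟨t - 1, by omega⟩
    apply orderOf_eq_prime_pow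
    · rw [hpow]
      have := ht' s' (by omega)
      omega
    · rw [hpow]; exact ht

end Unip

end CfsgLib.SympAlg27
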