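import Cfsg.Agent.LibSympAlg27
import Cfsg.Agent.LibSpecLin27b

set_option autoImplicit false

/-! Analysis of odd order elements of `Sp_{2n}(q)`. -/

namespace CfsgLib.SympAlg27

open Polynomial

section

variable {F : Type*} [Field F]

theorem selfadj_aeval {V : Type*} [AddCommGroup V] [Module F V] (B : LinearMap.BilinForm F V) (T : V →ₗ[F] V)
    (hT : ∀ v w, B (T v) w = B v (T w)) (P : F[X]) : ∀ v w, B (aeval T P v) w = B v (aeval T P w) := by
  have hpow : ∀ (n : ℕ) (v w : V), B ((T ^ n) v) w = B v ((T ^ n) w) := by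
    intro n
    induction n with
    | zero => intro v w; simp
    | succ n ih =>
      intro v w
      rw [pow_succ, Module.End.mul_apply, ih, hT, ← Module.End.mul_apply, ← pow_succ', ← pow_succ]
  induction P using Polynomial.induction_on' with
  | add p q hp hq =>
    intro v w
    rw [map_add, LinearMap.add_apply, LinearMap.add_apply, map_add, map_add, LinearMap.add_apply, hp, hq]
  | monomial n a =>
    intro v w
    rw [Polynomial.aeval_monomial, ← Algebra.smul_def, LinearMap.smul_apply, LinearMap.smul_apply, map_smul,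
      LinearMap.smul_apply, map_smul, hpow]

theorem cyclic_bound {V : Type*} [AddCommGroup V] [Module F V] [FiniteDimensional F V]
    (B : LinearMap.BilinForm F V) (hB : B.IsAlt) (hnd : B.Nondegenerate) (h2 : (2 : F) ≠ 0) (T : V →ₗ[F] V)
    (hT : ∀ v w, B (T v) w = B v (T w)) (f : F[X]) (hf : Irreducible f) (n : ℕ) (hV : Module.finrank F V = 2 * n)
    (j : ℕ) (hj : (aeval T f) ^ j = 0) : ∃ i : ℕ, (aeval T f) ^ i = 0 ∧ f.natDegree * i ≤ n := by
  classical
  have hex : ∃ i, (aeval T f) ^ i = 0 := ⟨j, hj⟩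
  refine ⟨Nat.find hex, Nat.find_spec hex, ?_⟩
  set i := Nat.find hex with hi
  rcases Nat.eq_zero_or_pos i with h0 | hpos
  · rw [h0, mul_zero]; exact Nat.zero_le _
  obtain ⟨v, hv⟩ : ∃ v, ((aeval T f) ^ (i - 1)) v ≠ 0 := by
    by_contra hcon
    push Not at hcon
    exact Nat.find_min hex (m := i - 1) (by omega) (LinearMap.ext hcon)
  have hfi : (aeval T f) ^ i = 0 := Nat.find_spec hex
  let φ : degreeLT F (f.natDegree * i) →ₗ[F] V :=
    { toFun := fun P => aeval T (P : F[X]) v
      map_add' := fun P Q => by simp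
      map_smul' := fun c P => by simp }
  have hinj : Function.Injective φ := by
    rw [injective_iff_map_eq_zero]
    rintro ⟨P, hP⟩ h0
    have h0' : aeval T P v = 0 := h0
    by_contra hne
    have hP0 : P ≠ 0 := fun h => hne (Subtype.ext h)
    have hdeg : P.natDegree < f.natDegree * i := by
      rw [mem_degreeLT, Polynomial.degree_eq_natDegree hP0] at hP
      exact_mod_cast hP
    obtain ⟨i', hi', hass⟩ := (dvd_prime_pow hf.prime i).1 (EuclideanDomain.gcd_dvd_right P (f ^ i))
    have hlt : i' < i := by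
      rcases lt_or_eq_of_le hi' with h | h
      · exact h
      · exfalso
        have h1 : f ^ i ∣ P := by
          rw [h] at hass
          exact hass.symm.dvd.trans (EuclideanDomain.gcd_dvd_left _ _)
        have h2 := Polynomial.natDegree_le_of_dvd h1 hP0
        rw [Polynomial.natDegree_pow] at h2
        rw [mul_comm] at hdeg
        omega
    have hgcd : aeval T (EuclideanDomain.gcd P (f ^ i)) v = 0 := by
      rw [EuclideanDomain.gcd_eq_gcd_ab, map_add, LinearMap.add_apply]
      have e1 : aeval T (P * EuclideanDomain.gcdA P (f ^ i)) v = 0 := by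
        rw [mul_comm, map_mul, Module.End.mul_apply, h0', map_zero]
      have e2 : aeval T (f ^ i * EuclideanDomain.gcdB P (f ^ i)) v = 0 := by
        rw [map_mul, map_pow, hfi, zero_mul, LinearMap.zero_apply]
      rw [e1, e2, add_zero]
    have h3 : aeval T (f ^ (i - 1)) v = 0 := by
      have h4 : EuclideanDomain.gcd P (f ^ i) ∣ f ^ (i - 1) :=
        hass.dvd.trans (pow_dvd_pow _ (by omega))
      obtain ⟨c, hc⟩ := h4
      rw [hc, mul_comm, map_mul, Module.End.mul_apply, hgcd, map_zero]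
    rw [map_pow] at h3
    exact hv h3
  have hself : ∀ P : F[X], B v (aeval T P v) = 0 := by
    intro P
    have h1 := selfadj_aeval B T hT P v v
    rw [← hB.neg_eq] at h1
    have h3 : (2 : F) * B v (aeval T P v) = 0 := by linear_combination -h1
    exact (mul_eq_zero.mp h3).resolve_left h2
  have hiso : LinearMap.range φ ≤ B.orthogonal (LinearMap.range φ) := by
    rintro _ ⟨P, rfl⟩
    rw [LinearMap.BilinForm.mem_orthogonal_iff]
    rintro _ ⟨Q, rfl⟩
    show B (aeval T (Q : F[X]) v) (aeval T (P : F[X]) v) = 0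
    rw [selfadj_aeval B T hT, ← Module.End.mul_apply, ← map_mul]
    exact hself _
  have h5 := Submodule.finrank_mono hiso
  rw [LinearMap.BilinForm.finrank_orthogonal hnd, hV, LinearMap.finrank_range_of_inj hinj] at h5
  have h6 : Module.finrank F (degreeLT F (f.natDegree * i)) = f.natDegree * i := by
    rw [(degreeLTEquiv F (f.natDegree * i)).finrank_eq, Module.finrank_fin_fun]
  rw [h6] at h5
  omega

/-- `Qp l (x + 1/x) = x ^ (-l) + ... + x ^ l` -/
noncomputable def Qp (F : Type*) [Field F] : ℕ → F[X]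
  | 0 => 1
  | 1 => 1 + X
  | (l + 2) => X * Qp F (l + 1) - Qp F l

theorem Qp_eval {R : Type*} [Ring R] [Algebra F R] (x y : R) (hxy : x * y = 1) :
    ∀ l : ℕ, x ^ l * aeval (x + y) (Qp F l) = ∑ i ∈ Finset.range (2 * l + 1), x ^ i
  | 0 => by simp [Qp]
  | 1 => by
    rw [Qp, map_add, map_one, Polynomial.aeval_X, pow_one, mul_add, mul_add, hxy, mul_one]
    simp [Finset.sum_range_succ, pow_two]
    abel
  | (l + 2) => by
    have h1 := Qp_eval x y hxy (l + 1)
    have h0 := Qp_eval x y hxy l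
    rw [Qp, map_sub, map_mul, Polynomial.aeval_X, mul_sub, add_mul, mul_add]
    have e1 : x ^ (l + 2) * (x * aeval (x + y) (Qp F (l + 1))) = x ^ 2 * (x ^ (l + 1) * aeval (x + y) (Qp F (l + 1))) := by
      rw [← mul_assoc, ← mul_assoc, ← pow_succ, ← pow_add]; congr 2; ring
    have e2 : x ^ (l + 2) * (y * aeval (x + y) (Qp F (l + 1))) = x ^ (l + 1) * aeval (x + y) (Qp F (l + 1)) := by
      rw [← mul_assoc, pow_succ x (l + 1), mul_assoc _ x y, hxy, mul_one]
    have e3 : x ^ (l + 2) * aeval (x + y) (Qp F l) = x ^ 2 * (x ^ l * aeval (x + y) (Qp F l)) := by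
      rw [← mul_assoc, ← pow_add, add_comm l 2]
    rw [e1, e2, e3, h1, h0]
    have e4 : 2 * (l + 1) + 1 = 2 * l + 1 + 1 + 1 := by ring
    have e5 : 2 * (l + 2) + 1 = 2 * l + 1 + 1 + 1 + 1 + 1 := by ring
    rw [e4, e5]
    simp only [Finset.sum_range_succ]
    rw [mul_add, mul_add]
    have e6 : x ^ 2 * x ^ (2 * l + 1 + 1) = x ^ (2 * l + 1 + 1 + 1 + 1) := by rw [← pow_add]; congr 1; ring
    have e7 : x ^ 2 * x ^ (2 * l + 1) = x ^ (2 * l + 1 + 1 + 1) := by rw [← pow_add]; congr 1; ring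
    rw [e6, e7]
    have e8 : x ^ 2 * (∑ i ∈ Finset.range (2 * l), x ^ i + x ^ (2 * l)) = x ^ 2 * (∑ i ∈ Finset.range (2 * l), x ^ i + x ^ (2 * l)) := rfl
    abel

/-- `Dp l (x + 1/x) = x ^ l + x ^ (-l)` -/
noncomputable def Dp (F : Type*) [Field F] : ℕ → F[X]
  | 0 => 2
  | 1 => X
  | (l + 2) => X * Dp F (l + 1) - Dp F l

theorem Dp_eval {R : Type*} [Ring R] [Algebra F R] (x y : R) (hxy : x * y = 1) :
    ∀ l : ℕ, x ^ l * aeval (x + y) (Dp F l) = x ^ (2 * l) + 1
  | 0 => by
    rw [Dp, pow_zero, one_mul, map_ofNat]; norm_num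
  | 1 => by
    rw [Dp, Polynomial.aeval_X, pow_one, mul_add, hxy, mul_one, pow_two]
  | (l + 2) => by
    have h1 := Dp_eval x y hxy (l + 1)
    have h0 := Dp_eval x y hxy l
    rw [Dp, map_sub, map_mul, Polynomial.aeval_X, mul_sub, add_mul, mul_add]
    have e1 : x ^ (l + 2) * (x * aeval (x + y) (Dp F (l + 1))) = x ^ 2 * (x ^ (l + 1) * aeval (x + y) (Dp F (l + 1))) := by
      rw [← mul_assoc, ← mul_assoc, ← pow_succ, ← pow_add]; congr 2; ring
    have e2 : x ^ (l + 2) * (y * aeval (x + y) (Dp F (l + 1))) = x ^ (l + 1) * aeval (x + y) (Dp F (l + 1)) := by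
      rw [← mul_assoc, pow_succ x (l + 1), mul_assoc _ x y, hxy, mul_one]
    have e3 : x ^ (l + 2) * aeval (x + y) (Dp F l) = x ^ 2 * (x ^ l * aeval (x + y) (Dp F l)) := by
      rw [← mul_assoc, ← pow_add, add_comm l 2]
    have e4 : x ^ 2 * (x ^ (2 * (l + 1)) + 1) = x ^ (2 * (l + 2)) + x ^ 2 := by
      rw [mul_add (x ^ 2), mul_one, ← pow_add]; congr 2; ring
    have e5 : x ^ 2 * (x ^ (2 * l) + 1) = x ^ (2 * (l + 1)) + x ^ 2 := by
      rw [mul_add (x ^ 2), mul_one, ← pow_add]; congr 2; ring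
    rw [e1, e2, e3, h1, h0, e4, e5]
    abel

/-- root data -/
theorem exists_lam [Fintype F] (f : F[X]) (hf : Irreducible f) (k : ℕ) (hk : Odd k) (hDk : f ∣ Dp F k - 2) :
    ∃ N : ℕ, Odd N ∧ (N ∣ Fintype.card F ^ f.natDegree - 1 ∨ N ∣ Fintype.card F ^ f.natDegree + 1) ∧
      ((Associated f (X - C 2)) ∨ ∃ l, N = 2 * l + 1 ∧ f ∣ Qp F l) := by
  let L := AlgebraicClosure F
  obtain ⟨σ, hσ⟩ := IsAlgClosed.exists_aeval_eq_zero L f (by
    rw [Polynomial.degree_eq_natDegree hf.ne_zero]
    have := hf.natDegree_pos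
    intro h
    have : f.natDegree = 0 := by exact_mod_cast h
    omega)
  have hdvd : ∀ P : F[X], aeval σ P = 0 → f ∣ P := by
    intro P hP
    have h1 : Associated f (minpoly F σ) := (minpoly.irreducible (Algebra.IsIntegral.isIntegral σ)).associated_of_dvd
      hf (minpoly.dvd F σ hσ) |>.symm
    exact h1.dvd.trans (minpoly.dvd F σ hP)
  obtain ⟨y, hy⟩ := IsAlgClosed.exists_aeval_eq_zero L (X ^ 2 - C σ * X + 1 : L[X]) (by
    have h1 : (X ^ 2 - C σ * X + 1 : L[X]).natDegree = 2 := by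
      have : (X ^ 2 - C σ * X + 1 : L[X]) = C 1 * X ^ 2 + C (-σ) * X + C 1 := by
        simp; ring
      rw [this]
      exact Polynomial.natDegree_quadratic one_ne_zero
    intro h
    have := Polynomial.natDegree_eq_zero_iff_degree_le_zero.mpr h.le
    omega)
  have hy1 : y ^ 2 - σ * y + 1 = 0 := by simpa using hy
  have hy0 : y ≠ 0 := by
    rintro rfl
    simp at hy1
  have hyy : y * y⁻¹ = 1 := mul_inv_cancel₀ hy0
  have hσy : σ = y + y⁻¹ := by
    apply mul_right_cancel₀ hy0
    linear_combination -hy1 - hyy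
  -- `y ^ k = 1`
  have hyk : y ^ k = 1 := by
    obtain ⟨c, hc⟩ := hDk
    have h1 : aeval σ (Dp F k) = 2 := by
      have := congrArg (aeval σ) hc
      rw [map_mul, hσ, zero_mul, map_sub] at this
      have h2 : aeval σ (2 : F[X]) = (2 : L) := map_ofNat _ _
      rw [h2] at this
      exact sub_eq_zero.mp this
    have h2 := Dp_eval (F := F) y y⁻¹ hyy k
    rw [← hσy, h1] at h2
    have h3 : (y ^ k - 1) ^ 2 = 0 := by
      rw [two_mul, pow_add] at h2
      linear_combination -h2
    exact sub_eq_zero.mp (pow_eq_zero_iff (two_ne_zero) |>.1 h3)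
  have hN : orderOf y ∣ k := orderOf_dvd_of_pow_eq_one hyk
  have hNodd : Odd (orderOf y) := hk.of_dvd_nat hN
  refine ⟨orderOf y, hNodd, ?_, ?_⟩
  · -- Frobenius
    set Q := Fintype.card F ^ f.natDegree with hQ
    have hpos : 1 ≤ Q := Nat.one_le_pow _ _ Fintype.card_pos
    have hσQ : σ ^ Q = σ := by
      have h1 : f ∣ X ^ (Nat.card F) ^ f.natDegree - X :=
        (hf.natDegree_dvd_iff_dvd_X_pow_card_pow_sub_X).1 dvd_rfl
      obtain ⟨c, hc⟩ := h1
      have := congrArg (aeval σ) hc
      rw [map_mul, hσ, zero_mul, map_sub, map_pow, Polynomial.aeval_X] at this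
      rw [hQ, ← Nat.card_eq_fintype_card]
      exact sub_eq_zero.mp this
    obtain ⟨p, hpchar⟩ := CharP.exists F
    obtain ⟨a, hp, ha⟩ := FiniteField.card F p
    haveI := Fact.mk hp
    haveI : CharP L p := charP_of_injective_algebraMap (algebraMap F L).injective p
    have hQp : Q = p ^ ((a : ℕ) * f.natDegree) := by rw [hQ, ha, pow_mul]
    have h3 : y ^ Q + (y ^ Q)⁻¹ = y + y⁻¹ := by
      rw [← hσy, ← inv_pow]
      conv_rhs => rw [← hσQ, hσy]
      rw [hQp, add_pow_char_pow]
    have hyQ : y ^ Q ≠ 0 := pow_ne_zero _ hy0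
    have hQQ : y ^ Q * (y ^ Q)⁻¹ = 1 := mul_inv_cancel₀ hyQ
    have h4 : (y ^ Q - y) * (y ^ Q * y - 1) = 0 := by
      linear_combination (y ^ Q * y) * h3 - y * hQQ + y ^ Q * hyy
    rcases mul_eq_zero.mp h4 with h | h
    · left
      apply orderOf_dvd_of_pow_eq_one
      have h5 : y ^ (Q - 1) * y = y := by
        rw [← pow_succ, Nat.sub_add_cancel hpos]; exact sub_eq_zero.mp h
      exact (mul_eq_right₀ hy0).mp h5
    · right
      apply orderOf_dvd_of_pow_eq_one
      rw [pow_succ]; exact sub_eq_zero.mp h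
  · by_cases hy1' : y = 1
    · left
      have h1 : σ = 2 := by rw [hσy, hy1']; norm_num
      have h2 : f ∣ X - C 2 := hdvd _ (by
        rw [map_sub, Polynomial.aeval_X, Polynomial.aeval_C, h1, map_ofNat, sub_self])
      exact hf.associated_of_dvd (Polynomial.irreducible_X_sub_C 2) h2
    · right
      obtain ⟨l, hl⟩ := hNodd
      refine ⟨l, hl, hdvd _ ?_⟩
      have h1 := Qp_eval (F := F) y y⁻¹ hyy l
      rw [← hσy, ← hl] at h1
      have h2 := mul_geom_sum' y (orderOf y)
      rw [pow_orderOf_eq_one, sub_self] at h2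
      have h3 : ∑ i ∈ Finset.range (orderOf y), y ^ i = 0 :=
        (mul_eq_zero.mp h2).resolve_left (sub_ne_zero.mpr hy1')
      rw [h3] at h1
      exact (mul_eq_zero.mp h1).resolve_left (pow_ne_zero _ hy0)
where
  mul_geom_sum' {L : Type _} [Field L] (y : L) (n : ℕ) : (y - 1) * ∑ i ∈ Finset.range n, y ^ i = y ^ n - 1 :=
    mul_geom_sum y n

/-- Analysis of an odd order symplectic matrix. -/
theorem analysis [Fintype F] (p : ℕ) [Fact p.Prime] [CharP F p] (h2 : (2 : F) ≠ 0) {n : ℕ} (hn : 1 ≤ n)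
    (A : Matrix.symplecticGroup (Fin n) F) (k : ℕ) (hk : Odd k) (hAk : A ^ k = 1) :
    (∃ z : Matrix.symplecticGroup (Fin n) F, z * z = 1 ∧ (z : Matrix (Fin n ⊕ Fin n) (Fin n ⊕ Fin n) F) ≠ 1 ∧
      (z : Matrix (Fin n ⊕ Fin n) (Fin n ⊕ Fin n) F) ≠ -1 ∧ z * A = A * z) ∨
    (∀ t, 2 * n ≤ p ^ t → A ^ (p ^ t) = 1) ∨
    ∃ d i N : ℕ, 1 ≤ d ∧ 1 ≤ i ∧ d * i ≤ n ∧ Odd N ∧
      (N ∣ Fintype.card F ^ d - 1 ∨ N ∣ Fintype.card F ^ d + 1) ∧
      ∀ s, i ≤ p ^ s → A ^ (N * p ^ s) = 1 := by
  classical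
  set a : Matrix (Fin n ⊕ Fin n) (Fin n ⊕ Fin n) F := (A : Matrix (Fin n ⊕ Fin n) (Fin n ⊕ Fin n) F) with ha
  set b : Matrix (Fin n ⊕ Fin n) (Fin n ⊕ Fin n) F :=
    ((A⁻¹ : Matrix.symplecticGroup (Fin n) F) : Matrix (Fin n ⊕ Fin n) (Fin n ⊕ Fin n) F) with hb
  have hab : a * b = 1 := congrArg Subtype.val (mul_inv_cancel A)
  have hba : b * a = 1 := congrArg Subtype.val (inv_mul_cancel A)
  have hapow : ∀ j : ℕ, ((A ^ j : Matrix.symplecticGroup (Fin n) F) : Matrix (Fin n ⊕ Fin n) (Fin n ⊕ Fin n) F) = a ^ j :=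
    fun j => rfl
  have hcomm : Commute a b := by rw [Commute, SemiconjBy, hab, hba]
  haveI : Nonempty (Fin n) := ⟨⟨0, hn⟩⟩
  set S := a + b with hS
  have hSa : Commute S a := (Commute.refl a).add_left hcomm.symm
  let B := Cfsg.Agent.H22.spB n F
  have hBalt : B.IsAlt := Cfsg.Agent.H22.spB_isAlt
  have hBnd : B.Nondegenerate := Cfsg.Agent.H22.spB_nondeg
  have hiso : ∀ u v, B (Matrix.mulVec a u) (Matrix.mulVec a v) = B u v := by
    intro u v
    show Cfsg.Agent.H22.spB n F _ _ = Cfsg.Agent.H22.spB n F _ _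
    rw [Cfsg.Agent.H22.spB_apply, Cfsg.Agent.H22.spB_apply]
    exact (Cfsg.Agent.H22.mem_sp_iff.1 A.2) u v
  let T : (Fin n ⊕ Fin n → F) →ₗ[F] (Fin n ⊕ Fin n → F) := Matrix.toLinAlgEquiv' S
  have hTap : ∀ v, T v = Matrix.mulVec a v + Matrix.mulVec b v := by
    intro v
    show Matrix.mulVec S v = _
    rw [hS, Matrix.add_mulVec]
  have hab' : ∀ v, Matrix.mulVec a (Matrix.mulVec b v) = v := by
    intro v; rw [Matrix.mulVec_mulVec, hab, Matrix.one_mulVec]
  have hTself : ∀ v w, B (T v) w = B v (T w) := by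
    intro v w
    rw [hTap, hTap, map_add, LinearMap.add_apply, map_add]
    have e1 : B (Matrix.mulVec a v) w = B v (Matrix.mulVec b w) := by
      conv_lhs => rw [← hab' w]
      exact hiso _ _
    have e2 : B (Matrix.mulVec b v) w = B v (Matrix.mulVec a w) := by
      rw [← hiso, hab']
    rw [e1, e2, add_comm]
  have haevalT : ∀ P : F[X], aeval T P = Matrix.toLinAlgEquiv' (aeval S P) := by
    intro P
    exact Polynomial.aeval_algHom_apply (Matrix.toLinAlgEquiv' (R := F) (n := Fin n ⊕ Fin n)).toAlgHom S P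
  have hcommP : ∀ P : F[X], Commute (aeval S P) a := by
    intro P
    induction P using Polynomial.induction_on' with
    | add p q hp hq => rw [map_add]; exact hp.add_left hq
    | monomial n c =>
      rw [Polynomial.aeval_monomial]
      exact (Algebra.commute_algebraMap_left c a).mul_left (hSa.pow_left n)
  let e : Matrix (Fin n ⊕ Fin n) (Fin n ⊕ Fin n) F ≃ₐ[F] Matrix (Fin (n + n)) (Fin (n + n)) F :=
    Matrix.reindexAlgEquiv F F finSumFinEquiv
  have haevale : ∀ P : F[X], aeval (e S) P = e (aeval S P) := by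
    intro P
    exact Polynomial.aeval_algHom_apply e.toAlgHom S P
  rcases CfsgLib.SpecLin27.idempotent_or_primary (by omega) (e S) with ⟨E0, hE, hE0, hE1, -, P, hP⟩ | ⟨f, j, hf, hfm, hcp⟩
  · left
    set E := aeval S P with hEdef
    have hEE : E0 = e E := by rw [hP, haevale]
    have hE' : E * E = E := by
      apply e.injective
      rw [map_mul, ← hEE, hE]
    have hE0' : E ≠ 0 := by
      intro h; apply hE0; rw [hEE, h, map_zero]
    have hE1' : E ≠ 1 := by
      intro h; apply hE1; rw [hEE, h, map_one]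
    have hzz : (1 - 2 * E) * (1 - 2 * E) = 1 := by
      have : (1 - 2 * E) * (1 - 2 * E) = 1 - 4 * E + 4 * (E * E) := by noncomm_ring
      rw [this, hE']
      simp
    have hTE : ∀ v w, B (Matrix.mulVec (1 - 2 * E) v) w = B v (Matrix.mulVec (1 - 2 * E) w) := by
      intro v w
      have h1 := selfadj_aeval B T hTself (1 - 2 * P) v w
      have h3 : ∀ v, (aeval T (1 - 2 * P)) v = Matrix.mulVec (1 - 2 * E) v := by
        intro v
        rw [haevalT]
        show Matrix.mulVec (aeval S (1 - 2 * P)) v = _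
        rw [map_sub, map_mul, map_one, map_ofNat]
      rw [h3, h3] at h1
      exact h1
    have hmem : (1 - 2 * E) ∈ Matrix.symplecticGroup (Fin n) F := by
      rw [Cfsg.Agent.H22.mem_sp_iff]
      intro u v
      rw [← Cfsg.Agent.H22.spB_apply, ← Cfsg.Agent.H22.spB_apply]
      show B _ _ = B _ _
      rw [hTE, Matrix.mulVec_mulVec, hzz, Matrix.one_mulVec]
    have h2M : ∀ X : Matrix (Fin n ⊕ Fin n) (Fin n ⊕ Fin n) F, 2 * X = 0 → X = 0 := by
      intro X hX
      have h1 : (2 : F) • X = 0 := by rw [two_smul, ← two_mul]; exact hX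
      exact (smul_eq_zero.mp h1).resolve_left h2
    refine ⟨⟨1 - 2 * E, hmem⟩, Subtype.ext hzz, ?_, ?_, Subtype.ext ?_⟩
    · intro h
      apply hE0'
      apply h2M
      have h' : 1 - 2 * E = 1 := h
      simpa using h'
    · intro h
      apply hE1'
      have h' : 1 - 2 * E = -1 := h
      have : 2 * (1 - E) = 0 := by
        have : 2 * (1 - E) = (1 - 2 * E) + 1 := by noncomm_ring
        rw [this, h']; simp
      exact (sub_eq_zero.mp (h2M _ this)).symm
    · show (1 - 2 * E) * a = a * (1 - 2 * E)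
      have : Commute (1 - 2 * E) a := by
        have h3 := hcommP (1 - 2 * P)
        rw [map_sub, map_mul, map_one, map_ofNat] at h3
        exact h3
      exact this
  · right
    have hSf : (aeval S f) ^ j = 0 := by
      have h1 := Matrix.aeval_self_charpoly (e S)
      rw [hcp, haevale, map_pow] at h1
      exact (map_eq_zero_iff e e.injective).1 h1
    have hj : j ≠ 0 := by
      rintro rfl
      rw [pow_zero] at hSf
      exact one_ne_zero hSf
    have hVd : Module.finrank F (Fin n ⊕ Fin n → F) = 2 * n := by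
      rw [Module.finrank_fintype_fun_eq_card, Fintype.card_sum, Fintype.card_fin]; ring
    obtain ⟨i, hi, hdi⟩ := cyclic_bound B hBalt hBnd h2 T hTself f hf n hVd j (by
      rw [haevalT, ← map_pow, hSf, map_zero])
    have hSi : (aeval S f) ^ i = 0 := by
      rw [haevalT, ← map_pow] at hi
      exact (map_eq_zero_iff _ (Matrix.toLinAlgEquiv' (R := F) (n := Fin n ⊕ Fin n)).injective).1 hi
    have hi1 : 1 ≤ i := by
      rcases Nat.eq_zero_or_pos i with rfl | h
      · rw [pow_zero] at hSi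
        exact absurd hSi one_ne_zero
      · exact h
    have hak : a ^ k = 1 := by rw [← hapow, hAk]; rfl
    have hDk : f ∣ Dp F k - 2 := by
      apply CfsgLib.SpecLin27.irreducible_factor_dvd (e S) f hf (by rw [hcp]; exact dvd_pow_self f hj)
      rw [haevale, map_sub, map_ofNat]
      have h1 := Dp_eval (F := F) a b hab k
      rw [hak, one_mul, mul_comm 2 k, pow_mul, hak, one_pow] at h1
      rw [hS, h1]
      have : (1 + 1 : Matrix (Fin n ⊕ Fin n) (Fin n ⊕ Fin n) F) - 2 = 0 := by norm_num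
      rw [this, map_zero]
    obtain ⟨N, hNodd, hNdvd, hN⟩ := exists_lam f hf k hk hDk
    have hnilp : ∀ P : F[X], f ∣ P → (aeval S P) ^ i = 0 := by
      rintro P ⟨c, rfl⟩
      rw [map_mul, (show Commute (aeval S f) (aeval S c) from by
        rw [Commute, SemiconjBy, ← map_mul, ← map_mul, mul_comm]).mul_pow, hSi, zero_mul]
    rcases hN with hN | ⟨l, hl, hNl⟩
    · left
      intro t ht
      have h1 := hnilp (X - C 2) hN.dvd
      rw [map_sub, Polynomial.aeval_X, Polynomial.aeval_C] at h1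
      have h3 : S - algebraMap F _ 2 = b * (a - 1) ^ 2 := by
        rw [map_ofNat, hS]
        have e1 : b * (a - 1) ^ 2 = (b * a) * a - 2 * (b * a) + b := by noncomm_ring
        rw [e1, hba, one_mul, mul_one]; abel
      have hcb : Commute b ((a - 1) ^ 2) := by
        apply Commute.pow_right
        exact hcomm.symm.sub_right (Commute.one_right b)
      rw [h3, hcb.mul_pow, ← pow_mul] at h1
      have h4 : (a - 1) ^ (2 * i) = 0 := by
        have h5 : a ^ i * (b ^ i * (a - 1) ^ (2 * i)) = 0 := by rw [h1, mul_zero]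
        rwa [← mul_assoc, ← hcomm.mul_pow, hab, one_pow, one_mul] at h5
      apply Subtype.ext
      rw [hapow]
      show a ^ p ^ t = 1
      have h5 : (a - 1) ^ (p ^ t) = 0 := by
        apply pow_eq_zero_of_le _ h4
        have : i ≤ f.natDegree * i := Nat.le_mul_of_pos_left _ hf.natDegree_pos
        omega
      rw [sub_pow_char_pow_of_commute _ _ (Commute.one_right a), one_pow] at h5
      exact sub_eq_zero.mp h5
    · right
      refine ⟨f.natDegree, i, N, hf.natDegree_pos, hi1, hdi, hNodd, hNdvd, ?_⟩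
      intro s hs
      have h1 := hnilp _ hNl
      have h3 := Qp_eval (F := F) a b hab l
      rw [← hS, ← hl] at h3
      have hcl : Commute (a ^ l) (aeval S (Qp F l)) := ((hcommP _).pow_right l).symm
      have h4 : (∑ i ∈ Finset.range N, a ^ i) ^ i = 0 := by
        rw [← h3, hcl.mul_pow, h1, mul_zero]
      have h5 : (a ^ N - 1) ^ i = 0 := by
        rw [← geom_sum_mul]
        have hc : Commute (∑ i ∈ Finset.range N, a ^ i) (a - 1) := by
          rw [Commute, SemiconjBy, geom_sum_mul, mul_geom_sum]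
        rw [hc.mul_pow, h4, zero_mul]
      apply Subtype.ext
      rw [hapow]
      show a ^ (N * p ^ s) = 1
      have h6 : (a ^ N - 1) ^ (p ^ s) = 0 := pow_eq_zero_of_le hs h5
      rw [sub_pow_char_pow_of_commute _ _ (Commute.one_right (a ^ N)), one_pow, ← pow_mul] at h6
      exact sub_eq_zero.mp h6

end

end CfsgLib.SympAlg27
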