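import Cfsg.Agent.EqBase
import Cfsg.Agent.LibCoprime2
import Cfsg.Agent.LibAxB9
import Cfsg.Agent.LibCores
import Cfsg.Agent.LibBenderMax
import Cfsg.Agent.LibDihedral
import Cfsg.Agent.LibCentricH12

/-! The Thompson dihedral lemma (helper8). -/

set_option autoImplicit false

namespace CfsgLib.TD8

open Subgroup Cfsg
open scoped commutatorElement

variable {G : Type*} [Group G]

/-- `A` acts on `⟨x⟩` by signs -/
def Eg (A : Subgroup G) (x : G) : Prop := ∀ a ∈ A, a * x * a⁻¹ = x ∨ a * x * a⁻¹ = x⁻¹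

theorem ne_inv {x : G} (hx : x ≠ 1) (ho : Odd (orderOf x)) : x ≠ x⁻¹ := by
  intro h
  have h1 : x ^ 2 = 1 := by rw [pow_two]; nth_rw 2 [h]; exact mul_inv_cancel x
  have h2 := orderOf_dvd_of_pow_eq_one h1
  rcases (Nat.dvd_prime Nat.prime_two).1 h2 with h3 | h3
  · exact hx (orderOf_eq_one_iff.1 h3)
  · rw [h3] at ho; exact absurd ho (by decide)

theorem odd_order {P : Subgroup G} [Finite G] (hP : Odd (Nat.card P)) {x : G} (hx : x ∈ P) : Odd (orderOf x) := by
  have h1 := orderOf_dvd_natCard (⟨x, hx⟩ : P)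
  rw [Subgroup.orderOf_mk] at h1
  exact Odd.of_dvd_nat hP h1

/-- the sign stabilizer -/
def St (x : G) : Subgroup G where
  carrier := {a | a * x * a⁻¹ = x ∨ a * x * a⁻¹ = x⁻¹}
  one_mem' := by left; simp
  mul_mem' := by
    intro a b ha hb
    have e : a * b * x * (a * b)⁻¹ = a * (b * x * b⁻¹) * a⁻¹ := by group
    show a * b * x * (a * b)⁻¹ = x ∨ a * b * x * (a * b)⁻¹ = x⁻¹
    rw [e]
    rcases hb with hb | hb
    · rw [hb]; exact ha
    · rw [hb]
      have e2 : a * x⁻¹ * a⁻¹ = (a * x * a⁻¹)⁻¹ := by group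
      rw [e2]
      rcases ha with ha | ha
      · right; rw [ha]
      · left; rw [ha, inv_inv]
  inv_mem' := by
    intro a ha
    show a⁻¹ * x * a⁻¹⁻¹ = x ∨ a⁻¹ * x * a⁻¹⁻¹ = x⁻¹
    rcases ha with ha | ha
    · left
      calc a⁻¹ * x * a⁻¹⁻¹ = a⁻¹ * (a * x * a⁻¹) * a := by rw [ha]; group
        _ = x := by group
    · right
      have h1 : (a * x * a⁻¹)⁻¹ = x := by rw [ha, inv_inv]
      calc a⁻¹ * x * a⁻¹⁻¹ = a⁻¹ * ((a * x * a⁻¹)⁻¹) * a := by rw [h1]; group
        _ = x⁻¹ := by group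

theorem card_coprime [Finite G] {A P : Subgroup G} (hA : IsElementaryAbelian 2 A) (hP : Odd (Nat.card P)) :
    (Nat.card A).Coprime (Nat.card P) := by
  haveI : Fact (Nat.Prime 2) := ⟨Nat.prime_two⟩
  have h1 : IsPGroup 2 A := by
    intro a
    exact ⟨1, Subtype.ext (by rw [pow_one]; exact hA.2 a a.2)⟩
  obtain ⟨k, hk⟩ := IsPGroup.iff_card.1 h1
  rw [hk]
  exact Nat.Coprime.pow_left k (Nat.coprime_two_left.2 hP)

theorem comm_mem {A : Subgroup G} (hA : IsElementaryAbelian 2 A) {a b : G} (ha : a ∈ A) (hb : b ∈ A) : a * b = b * a := by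
  exact congrArg Subtype.val (hA.1.is_comm.comm (⟨a, ha⟩ : A) ⟨b, hb⟩)

theorem exists_eig [Finite G] {P A : Subgroup G} (hP : Odd (Nat.card P)) (hA : IsElementaryAbelian 2 A)
    (hAP : A ≤ normalizer (P : Set G)) {a : G} (ha : a ∈ A) (hna : ∃ y ∈ P, a * y ≠ y * a) :
    ∃ x ∈ P, x ≠ 1 ∧ Eg A x ∧ a * x * a⁻¹ = x⁻¹ := by
  haveI := hA.1
  have hgen := CfsgLib.Coprime2.generation_cyclic_quotient hAP (card_coprime hA hP)
  have haa : a * a = 1 := by rw [← pow_two]; exact hA.2 a ha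
  obtain ⟨B, hBA, a0, ha0, hAB, y, hy, hyB, hay⟩ : ∃ B : Subgroup G, B ≤ A ∧ ∃ a0 ∈ A, A ≤ B ⊔ zpowers a0 ∧
      ∃ y ∈ P, y ∈ centralizer (B : Set G) ∧ a * y ≠ y * a := by
    by_contra hcon
    push Not at hcon
    obtain ⟨y, hy, hay⟩ := hna
    apply hay
    have h1 : P ≤ centralizer ({a} : Set G) := by
      rw [← hgen]
      apply iSup₂_le
      rintro B ⟨hBA, a0, ha0, hAB⟩ y hy
      rw [mem_centralizer_singleton_iff]
      exact (hcon B hBA a0 ha0 hAB y hy.1 hy.2).symm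
    exact (mem_centralizer_singleton_iff.1 (h1 hy)).symm
  rw [mem_centralizer_iff] at hyB
  have hP1 : a * y * a⁻¹ ∈ P := (Subgroup.mem_normalizer_iff.1 (hAP ha) y).1 hy
  have hB1 : ∀ b ∈ B, b * (a * y * a⁻¹) = (a * y * a⁻¹) * b := by
    intro b hb
    have h1 := comm_mem hA (hBA hb) ha
    have h2 := hyB b hb
    calc b * (a * y * a⁻¹) = (b * a) * y * a⁻¹ := by group
      _ = a * (b * y) * a⁻¹ := by rw [h1]; group
      _ = a * y * (b * a⁻¹) := by rw [h2]; group
      _ = a * y * (a⁻¹ * (a * b) * a⁻¹) := by group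
      _ = a * y * (a⁻¹ * (b * a) * a⁻¹) := by rw [h1]
      _ = (a * y * a⁻¹) * b := by group
  obtain ⟨x, hx⟩ : ∃ x, x = y⁻¹ * (a * y * a⁻¹) := ⟨_, rfl⟩
  have hxP : x ∈ P := by rw [hx]; exact mul_mem (inv_mem hy) hP1
  have hax : a * x * a⁻¹ = x⁻¹ := by
    have hai : a⁻¹ = a := by rw [inv_eq_iff_mul_eq_one]; exact haa
    rw [hx]
    calc a * (y⁻¹ * (a * y * a⁻¹)) * a⁻¹ = (a * y⁻¹ * a⁻¹) * ((a * a) * y * (a * a)⁻¹) := by group
      _ = (a * y⁻¹ * a⁻¹) * y := by rw [haa]; group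
      _ = (y⁻¹ * (a * y * a⁻¹))⁻¹ := by group
  have hxB : ∀ b ∈ B, b * x * b⁻¹ = x := by
    intro b hb
    have h1 := hB1 b hb
    have h2 := hyB b hb
    have h3 : b * y⁻¹ = y⁻¹ * b := by
      calc b * y⁻¹ = y⁻¹ * (y * b) * y⁻¹ := by group
        _ = y⁻¹ * (b * y) * y⁻¹ := by rw [h2]
        _ = y⁻¹ * b := by group
    rw [hx]
    calc b * (y⁻¹ * (a * y * a⁻¹)) * b⁻¹ = (b * y⁻¹) * (a * y * a⁻¹) * b⁻¹ := by group
      _ = y⁻¹ * (b * (a * y * a⁻¹)) * b⁻¹ := by rw [h3]; group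
      _ = y⁻¹ * (a * y * a⁻¹) := by rw [h1]; group
  refine ⟨x, hxP, ?_, ?_, hax⟩
  · intro h
    apply hay
    rw [hx] at h
    have h1 : a * y * a⁻¹ = y := by
      have := eq_inv_of_mul_eq_one_right h
      rwa [inv_inv] at this
    calc a * y = a * y * a⁻¹ * a := by group
      _ = y * a := by rw [h1]
  · have hBn : zpowers a0 ≤ normalizer (B : Set G) := by
      rw [zpowers_le, Subgroup.mem_normalizer_iff]
      have h1 : ∀ b ∈ B, a0 * b * a0⁻¹ = b := by
        intro b hb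
        rw [comm_mem hA ha0 (hBA hb)]; group
      intro b
      constructor
      · intro hb; rw [h1 b hb]; exact hb
      · intro hb
        have h2 := h1 _ hb
        have h3 : a0 * b * a0⁻¹ = b := by
          have h4 : a0 * (a0 * b * a0⁻¹) = (a0 * b * a0⁻¹) * a0 := by
            calc a0 * (a0 * b * a0⁻¹) = a0 * (a0 * b * a0⁻¹) * a0⁻¹ * a0 := by group
              _ = (a0 * b * a0⁻¹) * a0 := by rw [h2]
          calc a0 * b * a0⁻¹ = a0⁻¹ * (a0 * (a0 * b * a0⁻¹)) := by group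
            _ = a0⁻¹ * ((a0 * b * a0⁻¹) * a0) := by rw [h4]
            _ = b := by group
        rw [h3] at hb; exact hb
    have h0 : a0 ∈ St x := by
      obtain ⟨b, hb, z, hz, hbz⟩ := (CfsgLib.CentricH12.mem_sup_of_le_normalizer hBn).1 (hAB ha)
      obtain ⟨k, rfl⟩ := mem_zpowers_iff.1 hz
      have haS : a ∈ St x := Or.inr hax
      have hbS : b ∈ St x := Or.inl (hxB b hb)
      have h1 : a0 ^ k ∈ St x := by
        have : a0 ^ k = b⁻¹ * a := by rw [hbz]; group
        rw [this]; exact mul_mem (inv_mem hbS) haS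
      have h2 : a0 ^ 2 = 1 := hA.2 a0 ha0
      rcases Int.even_or_odd k with ⟨m, hm⟩ | ⟨m, hm⟩
      · exfalso
        have h3 : a0 ^ k = 1 := by
          rw [hm, ← two_mul, zpow_mul]
          have : a0 ^ (2 : ℤ) = 1 := by exact_mod_cast h2
          rw [this, one_zpow]
        rw [h3, mul_one] at hbz
        rw [hbz] at hay
        exact hay (hyB b hb)
      · have h3 : a0 ^ k = a0 := by
          rw [hm, zpow_add, zpow_mul, zpow_one]
          have : a0 ^ (2 : ℤ) = 1 := by exact_mod_cast h2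
          rw [this, one_zpow, one_mul]
        rwa [h3] at h1
    have h1 : A ≤ St x := hAB.trans (sup_le (fun b hb => Or.inl (hxB b hb)) (zpowers_le.2 h0))
    exact fun c hc => h1 hc

/-- `p`-group case -/
theorem exists_abelian [Finite G] {p : ℕ} [hp : Fact p.Prime] (hp2 : p ≠ 2) {A : Subgroup G}
    (hA : IsElementaryAbelian 2 A) : ∀ (n : ℕ) (P : Subgroup G), Nat.card P = n → IsPGroup p P →
      A ≤ normalizer (P : Set G) → ∃ E : Subgroup G, E ≤ P ∧ A ≤ normalizer (E : Set G) ∧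
        (∀ x ∈ E, ∀ y ∈ E, x * y = y * x) ∧ ∀ a ∈ A, (∃ y ∈ P, a * y ≠ y * a) → ∃ y ∈ E, a * y ≠ y * a := by
  intro n
  induction n using Nat.strong_induction_on with
  | _ n ih =>
  intro P hn hPp hAP
  have hPodd : Odd (Nat.card P) := by
    obtain ⟨k, hk⟩ := IsPGroup.iff_card.1 hPp
    rw [hk]
    exact (hp.out.odd_of_ne_two hp2).pow
  by_cases hcase : ∀ x ∈ P, x ≠ 1 → Eg A x → (∃ a ∈ A, a * x * a⁻¹ = x⁻¹) → x ∈ centralizer (P : Set G)
  · obtain ⟨X, hX⟩ : ∃ X : Set G, X = {x | x ∈ P ∧ x ≠ 1 ∧ Eg A x ∧ ∃ a ∈ A, a * x * a⁻¹ = x⁻¹} := ⟨_, rfl⟩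
    have hXP : X ⊆ P := by rw [hX]; exact fun x hx => hx.1
    have hXC : X ⊆ centralizer (P : Set G) := by
      rw [hX]; exact fun x hx => hcase x hx.1 hx.2.1 hx.2.2.1 hx.2.2.2
    refine ⟨closure X, (closure_le _).2 hXP, ?_, ?_, ?_⟩
    · intro a ha
      have h1 : ∀ a ∈ A, ∀ x ∈ closure X, a * x * a⁻¹ ∈ closure X := by
        intro a ha x hx
        have h2 : closure X ≤ (closure X).comap (MulAut.conj a).toMonoidHom := by
          rw [closure_le]
          intro y hy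
          show a * y * a⁻¹ ∈ closure X
          have hy' := hy
          rw [hX] at hy'
          rcases hy'.2.2.1 a ha with h | h
          · rw [h]; exact subset_closure hy
          · rw [h]; exact inv_mem (subset_closure hy)
        exact h2 hx
      rw [Subgroup.mem_normalizer_iff]
      intro x
      constructor
      · exact h1 a ha x
      · intro hx
        have := h1 a⁻¹ (inv_mem ha) _ hx
        have e : a⁻¹ * (a * x * a⁻¹) * a⁻¹⁻¹ = x := by group
        rwa [e] at this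
    · intro x hx y hy
      have h1 := (closure_le _).2 hXC hx
      rw [mem_centralizer_iff] at h1
      exact (h1 y ((closure_le _).2 hXP hy)).symm
    · intro a ha hna
      obtain ⟨x, hxP, hx1, hxE, hax⟩ := exists_eig hPodd hA hAP ha hna
      refine ⟨x, subset_closure (by rw [hX]; exact ⟨hxP, hx1, hxE, a, ha, hax⟩), ?_⟩
      intro h
      apply ne_inv hx1 (odd_order hPodd hxP)
      rw [← hax, h]; group
  · push Not at hcase
    obtain ⟨x, hxP, hx1, hxE, ⟨a1, ha1, hax1⟩, hxC⟩ := hcase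
    have hlt : P ⊓ centralizer ({x} : Set G) < P := by
      refine lt_of_le_of_ne inf_le_left ?_
      intro h
      apply hxC
      rw [mem_centralizer_iff]
      intro y hy
      have : y ∈ P ⊓ centralizer ({x} : Set G) := by rw [h]; exact hy
      exact mem_centralizer_singleton_iff.1 this.2
    have hcard : Nat.card (P ⊓ centralizer ({x} : Set G) : Subgroup G) < n := by
      rw [← hn]
      apply lt_of_le_of_ne (Nat.card_le_card_of_injective _ (inclusion_injective hlt.le))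
      intro h
      exact hlt.ne (Subgroup.eq_of_le_of_card_ge hlt.le h.ge)
    have hQn : A ≤ normalizer ((P ⊓ centralizer ({x} : Set G) : Subgroup G) : Set G) := by
      have h1 : ∀ a ∈ A, ∀ y ∈ P ⊓ centralizer ({x} : Set G), a * y * a⁻¹ ∈ P ⊓ centralizer ({x} : Set G) := by
        intro a ha y hy
        refine Subgroup.mem_inf.2 ⟨(Subgroup.mem_normalizer_iff.1 (hAP ha) y).1 (Subgroup.mem_inf.1 hy).1, ?_⟩
        have hyx := mem_centralizer_singleton_iff.1 (Subgroup.mem_inf.1 hy).2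
        have h2 : a⁻¹ * x * a⁻¹⁻¹ = x ∨ a⁻¹ * x * a⁻¹⁻¹ = x⁻¹ := hxE a⁻¹ (inv_mem ha)
        rw [mem_centralizer_singleton_iff]
        have e1 : a * y * a⁻¹ * x = a * (y * (a⁻¹ * x * a⁻¹⁻¹)) * a⁻¹ := by group
        have e2 : x * (a * y * a⁻¹) = a * ((a⁻¹ * x * a⁻¹⁻¹) * y) * a⁻¹ := by group
        rw [e1, e2]
        rcases h2 with h2 | h2
        · rw [h2, hyx]
        · rw [h2]
          have : y * x⁻¹ = x⁻¹ * y := by
            calc y * x⁻¹ = x⁻¹ * (x * y) * x⁻¹ := by group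
              _ = x⁻¹ * (y * x) * x⁻¹ := by rw [hyx]
              _ = x⁻¹ * y := by group
          rw [this]
      intro a ha
      rw [Subgroup.mem_normalizer_iff]
      intro y
      constructor
      · exact h1 a ha y
      · intro hx
        have := h1 a⁻¹ (inv_mem ha) _ hx
        have e : a⁻¹ * (a * y * a⁻¹) * a⁻¹⁻¹ = y := by group
        rwa [e] at this
    obtain ⟨E, hE1, hE2, hE3, hE4⟩ := ih _ hcard _ rfl (hPp.to_le inf_le_left) hQn
    refine ⟨E, hE1.trans inf_le_left, hE2, hE3, ?_⟩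
    intro a ha hna
    apply hE4 a ha
    by_contra hcon
    push Not at hcon
    have hax : a * x = x * a := hcon x (Subgroup.mem_inf.2 ⟨hxP, mem_centralizer_singleton_iff.2 rfl⟩)
    obtain ⟨y, hy, hay⟩ := hna
    apply hay
    have hxp : IsPGroup p (zpowers x) := hPp.to_le (zpowers_le.2 hxP)
    have ha2 : (Nat.card (zpowers a)).Coprime p := by
      rw [Nat.card_zpowers]
      apply Nat.Coprime.coprime_dvd_left (orderOf_dvd_of_pow_eq_one (hA.2 a ha))
      exact (Nat.coprime_primes Nat.prime_two hp.out).2 hp2.symm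
    have hc : ⁅zpowers x, zpowers a⁆ = ⊥ := by
      rw [commutator_eq_bot_iff_le_centralizer, zpowers_le, mem_centralizer_iff]
      intro z hz
      obtain ⟨k, rfl⟩ := mem_zpowers_iff.1 hz
      exact (Commute.zpow_left (show Commute a x from hax) k)
    have h1 := CfsgLib.AxB9.thompson_AxB hxp ha2 hc _ P rfl hPp ((zpowers_le.2 hxP).trans le_normalizer)
      ((zpowers_le.2 ha).trans hAP) (by
        rw [commutator_comm, commutator_eq_bot_iff_le_centralizer, zpowers_le, mem_centralizer_iff]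
        intro z hz
        have hz2 : z ∈ centralizer ({x} : Set G) := by
          rw [mem_centralizer_singleton_iff]
          have := mem_centralizer_iff.1 (Subgroup.mem_inf.1 hz).2 x (mem_zpowers x)
          exact this.symm
        exact (hcon z (Subgroup.mem_inf.2 ⟨(Subgroup.mem_inf.1 hz).1, hz2⟩)).symm)
    rw [commutator_comm, commutator_eq_bot_iff_le_centralizer, zpowers_le, mem_centralizer_iff] at h1
    exact (h1 y hy).symm

/-- the image in `G` of `O_p(L)` -/
def Op (p : ℕ) (L : Subgroup G) : Subgroup G := (pCore p L).map L.subtype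

/-- conjugation by a normalizing element -/
def cjN {L : Subgroup G} {a : G} (ha : a ∈ normalizer (L : Set G)) : L ≃* L where
  toFun y := ⟨a * y * a⁻¹, (Subgroup.mem_normalizer_iff.1 ha y).1 y.2⟩
  invFun y := ⟨a⁻¹ * y * a⁻¹⁻¹, (Subgroup.mem_normalizer_iff.1 (inv_mem ha) y).1 y.2⟩
  left_inv := fun y => Subtype.ext (by show a⁻¹ * (a * (y : G) * a⁻¹) * a⁻¹⁻¹ = y; group)
  right_inv := fun y => Subtype.ext (by show a * (a⁻¹ * (y : G) * a⁻¹⁻¹) * a⁻¹ = y; group)
  map_mul' := fun y z => Subtype.ext (by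
    show a * ((y : G) * (z : G)) * a⁻¹ = a * (y : G) * a⁻¹ * (a * (z : G) * a⁻¹); group)

theorem Op_conj {p : ℕ} {L : Subgroup G} {a : G} (ha : a ∈ normalizer (L : Set G)) {x : G} (hx : x ∈ Op p L) :
    a * x * a⁻¹ ∈ Op p L := by
  obtain ⟨y, hy, rfl⟩ := hx
  have h1 : cjN ha y ∈ pCore p L := by
    rw [← CfsgLib.Cores.map_pCore_equiv p (cjN ha)]
    exact ⟨y, hy, rfl⟩
  exact ⟨cjN ha y, h1, rfl⟩

theorem Op_norm {p : ℕ} {L A : Subgroup G} (hAL : A ≤ normalizer (L : Set G)) : A ≤ normalizer ((Op p L : Subgroup G) : Set G) := by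
  intro a ha
  rw [Subgroup.mem_normalizer_iff]
  intro x
  constructor
  · exact Op_conj (hAL ha)
  · intro hx
    have := Op_conj (inv_mem (hAL ha)) hx
    have e : a⁻¹ * (a * x * a⁻¹) * a⁻¹⁻¹ = x := by group
    rwa [e] at this

theorem Op_le {p : ℕ} {L : Subgroup G} : Op p L ≤ L := map_subtype_le _

theorem Op_pgroup [Finite G] {p : ℕ} {L : Subgroup G} : IsPGroup p (Op p L) := (CfsgLib.Cores.pCore_isPGroup p).map _

theorem Op_comm [Finite G] {p q : ℕ} (hp : p.Prime) (hq : q.Prime) (hpq : p ≠ q) {L : Subgroup G} {x y : G}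
    (hx : x ∈ Op p L) (hy : y ∈ Op q L) : x * y = y * x := by
  obtain ⟨x, hx, rfl⟩ := hx
  obtain ⟨y, hy, rfl⟩ := hy
  have h1 := CfsgLib.BenderMax.pCore_commute (H := L) hp hq hpq
  rw [commutator_eq_bot_iff_le_centralizer] at h1
  have h2 := mem_centralizer_iff.1 (h1 hx) y hy
  exact (congrArg Subtype.val h2).symm

theorem cent_of_Op [Finite G] {L : Subgroup G} (hLs : Group.IsSolvable ↥L) (hLodd : Odd (Nat.card ↥L))
    {a : G} (ha : a ∈ normalizer (L : Set G)) (haa : a * a = 1)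
    (h : ∀ p : ℕ, p.Prime → ∀ y ∈ Op p L, a * y = y * a) : ∀ y ∈ L, a * y = y * a := by
  have hai : a⁻¹ = a := by rw [inv_eq_iff_mul_eq_one]; exact haa
  have hF : (fittingSubgroup L).map L.subtype ≤ centralizer ({a} : Set G) := by
    rw [CfsgLib.Cores.fittingSubgroup_eq_iSup_pCore, Subgroup.map_iSup]
    apply iSup_le
    rintro ⟨p, hp⟩ y hy
    rw [mem_centralizer_singleton_iff]
    exact (h p hp y hy).symm
  intro l hl
  have hl' := (Subgroup.mem_normalizer_iff.1 ha l).1 hl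
  obtain ⟨c, hc⟩ : ∃ c, c = l * (a * l * a⁻¹)⁻¹ := ⟨_, rfl⟩
  have hcL : c ∈ L := by rw [hc]; exact mul_mem hl (inv_mem hl')
  have hcF : (⟨c, hcL⟩ : L) ∈ fittingSubgroup L := by
    apply CfsgLib.Cores.centralizer_fittingSubgroup_le
    rw [mem_centralizer_iff]
    intro f hf
    apply Subtype.ext
    show (f : G) * c = c * f
    have h1 : (⟨l, hl⟩ : L)⁻¹ * f * (⟨l, hl⟩ : L)⁻¹⁻¹ ∈ fittingSubgroup L :=
      (inferInstance : (fittingSubgroup L).Normal).conj_mem f hf _
    have h2 := mem_centralizer_singleton_iff.1 (hF ⟨_, h1, rfl⟩)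
    have h2' : (l⁻¹ * (f : G) * l⁻¹⁻¹) * a = a * (l⁻¹ * (f : G) * l⁻¹⁻¹) := h2
    have h3' : (f : G) * a = a * f := mem_centralizer_singleton_iff.1 (hF ⟨f, hf, rfl⟩)
    have h4 : (f : G) * a⁻¹ = a⁻¹ * f := by rw [hai]; exact h3'
    rw [hc]
    calc (f : G) * (l * (a * l * a⁻¹)⁻¹) = l * ((l⁻¹ * (f : G) * l⁻¹⁻¹) * a) * l⁻¹ * a⁻¹ := by group
      _ = l * (a * (l⁻¹ * (f : G) * l⁻¹⁻¹)) * l⁻¹ * a⁻¹ := by rw [h2']
      _ = l * a * l⁻¹ * ((f : G) * a⁻¹) := by group
      _ = l * (a * l * a⁻¹)⁻¹ * f := by rw [h4]; group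
  have hca : c * a = a * c := mem_centralizer_singleton_iff.1 (hF ⟨_, hcF, rfl⟩)
  have h1 : a * c * a⁻¹ = c⁻¹ := by
    rw [hc]
    calc a * (l * (a * l * a⁻¹)⁻¹) * a⁻¹ = (a * l * a⁻¹) * ((a * a) * l⁻¹ * (a * a)⁻¹) := by group
      _ = (a * l * a⁻¹) * l⁻¹ := by rw [haa]; group
      _ = (l * (a * l * a⁻¹)⁻¹)⁻¹ := by group
  have h2 : c = 1 := by
    by_contra hne
    apply ne_inv hne (odd_order hLodd hcL)
    rw [← h1, ← hca]; group
  rw [hc] at h2
  have h3 : l = a * l * a⁻¹ := mul_inv_eq_one.1 h2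
  calc a * l = a * l * a⁻¹ * a := by group
    _ = l * a := by rw [← h3]

/-- a commuting set of eigen-elements detecting `A` -/
theorem exists_X [Finite G] {L A : Subgroup G} (hLs : Group.IsSolvable ↥L) (hLodd : Odd (Nat.card ↥L))
    (hA : IsElementaryAbelian 2 A) (hAL : A ≤ normalizer (L : Set G))
    (hfaith : A ⊓ centralizer (L : Set G) = ⊥) :
    ∃ X : Set G, (∀ x ∈ X, x ∈ L ∧ Eg A x) ∧ (∀ x ∈ X, ∀ y ∈ X, x * y = y * x) ∧
      ∀ a ∈ A, a ≠ 1 → ∃ x ∈ X, x ≠ 1 ∧ a * x * a⁻¹ = x⁻¹ := by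
  classical
  have hE : ∀ p : ℕ, p.Prime → p ≠ 2 → ∃ E : Subgroup G, E ≤ Op p L ∧ A ≤ normalizer (E : Set G) ∧
        (∀ x ∈ E, ∀ y ∈ E, x * y = y * x) ∧ ∀ a ∈ A, (∃ y ∈ Op p L, a * y ≠ y * a) → ∃ y ∈ E, a * y ≠ y * a := by
    intro p hp hp2
    haveI : Fact p.Prime := ⟨hp⟩
    exact exists_abelian hp2 hA _ _ rfl Op_pgroup (Op_norm hAL)
  choose E hE1 hE2 hE3 hE4 using hE
  refine ⟨{x | Eg A x ∧ ∃ (p : ℕ) (hp : p.Prime) (hp2 : p ≠ 2), x ∈ E p hp hp2}, ?_, ?_, ?_⟩
  · rintro x ⟨hx, p, hp, hp2, hxE⟩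
    exact ⟨Op_le (hE1 p hp hp2 hxE), hx⟩
  · rintro x ⟨-, p, hp, hp2, hxE⟩ y ⟨-, q, hq, hq2, hyE⟩
    by_cases hpq : p = q
    · subst hpq
      exact hE3 p hp hp2 x hxE y hyE
    · exact Op_comm hp hq hpq (hE1 p hp hp2 hxE) (hE1 q hq hq2 hyE)
  · intro a ha ha1
    have haa : a * a = 1 := by rw [← pow_two]; exact hA.2 a ha
    have h1 : ¬ ∀ y ∈ L, a * y = y * a := by
      intro h
      apply ha1
      have : a ∈ A ⊓ centralizer (L : Set G) := Subgroup.mem_inf.2 ⟨ha, mem_centralizer_iff.2 (fun y hy => (h y hy).symm)⟩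
      rw [hfaith] at this
      exact mem_bot.1 this
    have h2 : ¬ ∀ p : ℕ, p.Prime → ∀ y ∈ Op p L, a * y = y * a := fun h => h1 (cent_of_Op hLs hLodd (hAL ha) haa h)
    push Not at h2
    obtain ⟨p, hp, y, hy, hay⟩ := h2
    have hp2 : p ≠ 2 := by
      rintro rfl
      apply hay
      have h3 : y = 1 := by
        haveI : Fact (Nat.Prime 2) := ⟨Nat.prime_two⟩
        obtain ⟨k, hk⟩ := Op_pgroup (p := 2) (L := L) ⟨y, hy⟩
        have h4 : y ^ 2 ^ k = 1 := congrArg Subtype.val hk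
        have h5 := odd_order hLodd (Op_le hy)
        have h6 := orderOf_dvd_of_pow_eq_one h4
        have h7 : (orderOf y).Coprime (2 ^ k) := Nat.Coprime.pow_right k (Nat.coprime_two_right.2 h5)
        exact orderOf_eq_one_iff.1 (Nat.Coprime.eq_one_of_dvd h7 h6)
      rw [h3, mul_one, one_mul]
    obtain ⟨z, hz, haz⟩ := hE4 p hp hp2 a ha ⟨y, hy, hay⟩
    have hEodd : Odd (Nat.card (E p hp hp2)) :=
      Odd.of_dvd_nat hLodd (Subgroup.card_dvd_of_le ((hE1 p hp hp2).trans Op_le))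
    obtain ⟨x, hx, hx1, hxE, hax⟩ := exists_eig hEodd hA (hE2 p hp hp2) ha ⟨z, hz, haz⟩
    exact ⟨x, ⟨hxE, p, hp, hp2, hx⟩, hx1, hax⟩

/-- dual bases -/
theorem exists_basis [Finite G] {L A : Subgroup G} (hLodd : Odd (Nat.card ↥L)) (hA : IsElementaryAbelian 2 A) {X : Set G}
    (hX1 : ∀ x ∈ X, x ∈ L ∧ Eg A x) (hX3 : ∀ a ∈ A, a ≠ 1 → ∃ x ∈ X, x ≠ 1 ∧ a * x * a⁻¹ = x⁻¹) :
    ∀ (k : ℕ) (B : Subgroup G), B ≤ A → Nat.card B = 2 ^ k → ∃ (b x : Fin k → G),
      (∀ i, b i ∈ B) ∧ (∀ i, x i ∈ X ∧ x i ≠ 1) ∧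
      (∀ i j, b i * x j * (b i)⁻¹ = if i = j then (x j)⁻¹ else x j) ∧ (⨆ i, zpowers (b i)) = B := by
  classical
  intro k
  induction k with
  | zero =>
    intro B hB hc
    refine ⟨Fin.elim0, Fin.elim0, fun i => i.elim0, fun i => i.elim0, fun i => i.elim0, ?_⟩
    rw [pow_zero, Subgroup.card_eq_one] at hc
    rw [hc]
    exact iSup_of_empty _
  | succ k ih =>
    intro B hB hc
    have hBne : B ≠ ⊥ := by
      intro h
      rw [h, Subgroup.card_bot, pow_succ] at hc
      have := Nat.one_le_two_pow (n := k)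
      omega
    obtain ⟨⟨b, hb⟩, hb1⟩ := Subgroup.ne_bot_iff_exists_ne_one.1 hBne
    have hb1' : b ≠ 1 := fun h => hb1 (Subtype.ext h)
    obtain ⟨x, hxX, hx1, hbx⟩ := hX3 b (hB hb) hb1'
    have hxi : x ≠ x⁻¹ := ne_inv hx1 (odd_order hLodd (hX1 x hxX).1)
    have hsp : ∀ c ∈ B, c * x * c⁻¹ = x⁻¹ → c⁻¹ * b ∈ B ⊓ centralizer ({x} : Set G) := by
      intro c hc hcx
      refine Subgroup.mem_inf.2 ⟨mul_mem (inv_mem hc) hb, ?_⟩
      rw [mem_centralizer_singleton_iff]
      have h1 : c⁻¹ * b * x * (c⁻¹ * b)⁻¹ = x := by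
        calc c⁻¹ * b * x * (c⁻¹ * b)⁻¹ = c⁻¹ * (b * x * b⁻¹) * c := by group
          _ = c⁻¹ * (c * x * c⁻¹) * c := by rw [hbx, hcx]
          _ = x := by group
      calc c⁻¹ * b * x = (c⁻¹ * b * x * (c⁻¹ * b)⁻¹) * (c⁻¹ * b) := by group
        _ = x * (c⁻¹ * b) := by rw [h1]
    have hidx : Nat.card (B ⊓ centralizer ({x} : Set G) : Subgroup G) = 2 ^ k := by
      have h1 : ((B ⊓ centralizer ({x} : Set G)).subgroupOf B).index = 2 := by
        rw [Subgroup.index_eq_two_iff]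
        refine ⟨⟨b, hb⟩, ?_⟩
        intro c
        have hcx := (hX1 x hxX).2 c (hB c.2)
        rw [Subgroup.mem_subgroupOf, Subgroup.mem_subgroupOf]
        have hbc : b * (c : G) = c * b := comm_mem hA (hB hb) (hB c.2)
        have key : ∀ d ∈ B, (d ∈ B ⊓ centralizer ({x} : Set G) ↔ d * x * d⁻¹ = x) := by
          intro d hd
          rw [Subgroup.mem_inf, mem_centralizer_singleton_iff]
          constructor
          · rintro ⟨-, h⟩
            rw [h]; group
          · intro h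
            refine ⟨hd, ?_⟩
            calc d * x = d * x * d⁻¹ * d := by group
              _ = x * d := by rw [h]
        have e1 : ((c * (⟨b, hb⟩ : B) : B) : G) = c * b := rfl
        rw [e1, key _ (mul_mem c.2 hb), key _ c.2]
        have e2 : (c : G) * b * x * ((c : G) * b)⁻¹ = (c * x * (c : G)⁻¹)⁻¹ := by
          calc (c : G) * b * x * ((c : G) * b)⁻¹ = c * (b * x * b⁻¹) * (c : G)⁻¹ := by group
            _ = (c * x * (c : G)⁻¹)⁻¹ := by rw [hbx]; group
        rw [e2]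
        rcases hcx with h | h
        · rw [h]
          right
          exact ⟨rfl, fun h => hxi h.symm⟩
        · rw [h, inv_inv]
          left
          exact ⟨rfl, fun h => hxi h.symm⟩
      have h2 := Subgroup.card_mul_index ((B ⊓ centralizer ({x} : Set G)).subgroupOf B)
      rw [h1, hc, Nat.card_congr (Subgroup.subgroupOfEquivOfLe (inf_le_left : B ⊓ centralizer ({x} : Set G) ≤ B)).toEquiv, pow_succ] at h2
      exact Nat.eq_of_mul_eq_mul_right (by norm_num) h2
    obtain ⟨bs, xs, h1, h2, h3, h4⟩ := ih (B ⊓ centralizer ({x} : Set G)) (inf_le_left.trans hB) hidx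
    -- correct b
    have hcorr : ∀ s : Finset (Fin k), ∃ b' ∈ B, b' * x * b'⁻¹ = x⁻¹ ∧ ∀ i ∈ s, b' * xs i * b'⁻¹ = xs i := by
      intro s
      induction s using Finset.induction_on with
      | empty => exact ⟨b, hb, hbx, fun i hi => absurd hi (Finset.notMem_empty i)⟩
      | insert j s hj ihs =>
        obtain ⟨b', hb', hb'x, hb's⟩ := ihs
        rcases (hX1 _ (h2 j).1).2 b' (hB hb') with h | h
        · refine ⟨b', hb', hb'x, ?_⟩
          intro i hi
          rcases Finset.mem_insert.1 hi with rfl | hi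
          · exact h
          · exact hb's i hi
        · refine ⟨bs j * b', mul_mem (Subgroup.mem_inf.1 (h1 j)).1 hb', ?_, ?_⟩
          · have h5 := mem_centralizer_singleton_iff.1 (Subgroup.mem_inf.1 (h1 j)).2
            calc bs j * b' * x * (bs j * b')⁻¹ = bs j * (b' * x * b'⁻¹) * (bs j)⁻¹ := by group
              _ = (bs j * x * (bs j)⁻¹)⁻¹ := by rw [hb'x]; group
              _ = x⁻¹ := by rw [h5]; group
          · intro i hi
            have e : bs j * b' * xs i * (bs j * b')⁻¹ = bs j * (b' * xs i * b'⁻¹) * (bs j)⁻¹ := by group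
            rw [e]
            rcases Finset.mem_insert.1 hi with rfl | hi
            · rw [h]
              have h6 := h3 i i
              rw [if_pos rfl] at h6
              calc bs i * (xs i)⁻¹ * (bs i)⁻¹ = (bs i * xs i * (bs i)⁻¹)⁻¹ := by group
                _ = xs i := by rw [h6, inv_inv]
            · rw [hb's i hi]
              have h6 := h3 j i
              rwa [if_neg (by rintro rfl; exact hj hi)] at h6
    obtain ⟨b0, hb0, hb0x, hb0s⟩ := hcorr Finset.univ
    refine ⟨Fin.cons b0 bs, Fin.cons x xs, ?_, ?_, ?_, ?_⟩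
    · intro i
      refine Fin.cases ?_ (fun i => ?_) i
      · exact hb0
      · rw [Fin.cons_succ]; exact (Subgroup.mem_inf.1 (h1 i)).1
    · intro i
      refine Fin.cases ?_ (fun i => ?_) i
      · exact ⟨hxX, hx1⟩
      · rw [Fin.cons_succ]; exact h2 i
    · intro i j
      refine Fin.cases ?_ (fun i => ?_) i
      · refine Fin.cases ?_ (fun j => ?_) j
        · rw [if_pos rfl, Fin.cons_zero, Fin.cons_zero]; exact hb0x
        · rw [if_neg (Fin.succ_ne_zero j).symm, Fin.cons_zero, Fin.cons_succ]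
          exact hb0s j (Finset.mem_univ _)
      · refine Fin.cases ?_ (fun j => ?_) j
        · rw [if_neg (Fin.succ_ne_zero i), Fin.cons_zero, Fin.cons_succ]
          have h5 := mem_centralizer_singleton_iff.1 (Subgroup.mem_inf.1 (h1 i)).2
          rw [h5]; group
        · rw [Fin.cons_succ, Fin.cons_succ, h3 i j]
          simp only [Fin.succ_inj]
    · apply le_antisymm
      · apply iSup_le
        intro i
        rw [zpowers_le]
        refine Fin.cases ?_ (fun i => ?_) i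
        · exact hb0
        · rw [Fin.cons_succ]; exact (Subgroup.mem_inf.1 (h1 i)).1
      · intro c hc
        have hB0 : B ⊓ centralizer ({x} : Set G) ≤ ⨆ i : Fin (k+1), zpowers ((Fin.cons b0 bs : Fin (k+1) → G) i) := by
          rw [← h4]
          apply iSup_le
          intro i
          have := le_iSup (fun i : Fin (k+1) => zpowers ((Fin.cons b0 bs : Fin (k+1) → G) i)) i.succ
          simpa only [Fin.cons_succ] using this
        have hb0' : b0 ∈ ⨆ i : Fin (k+1), zpowers ((Fin.cons b0 bs : Fin (k+1) → G) i) := by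
          have := le_iSup (fun i : Fin (k+1) => zpowers ((Fin.cons b0 bs : Fin (k+1) → G) i)) 0
          exact this (mem_zpowers b0)
        rcases (hX1 x hxX).2 c (hB hc) with h | h
        · apply hB0
          refine Subgroup.mem_inf.2 ⟨hc, ?_⟩
          rw [mem_centralizer_singleton_iff]
          calc c * x = c * x * c⁻¹ * c := by group
            _ = x * c := by rw [h]
        · have h5 : c⁻¹ * b0 ∈ B ⊓ centralizer ({x} : Set G) := by
            refine Subgroup.mem_inf.2 ⟨mul_mem (inv_mem hc) hb0, ?_⟩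
            rw [mem_centralizer_singleton_iff]
            have h1 : c⁻¹ * b0 * x * (c⁻¹ * b0)⁻¹ = x := by
              calc c⁻¹ * b0 * x * (c⁻¹ * b0)⁻¹ = c⁻¹ * (b0 * x * b0⁻¹) * c := by group
                _ = c⁻¹ * (c * x * c⁻¹) * c := by rw [hb0x, h]
                _ = x := by group
            calc c⁻¹ * b0 * x = (c⁻¹ * b0 * x * (c⁻¹ * b0)⁻¹) * (c⁻¹ * b0) := by group
              _ = x * (c⁻¹ * b0) := by rw [h1]
          have h6 := mul_mem hb0' (inv_mem (hB0 h5))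
          have e : b0 * (c⁻¹ * b0)⁻¹ = c := by group
          rwa [e] at h6

/-- Thompson's dihedral lemma -/
theorem main [Finite G] (L A : Subgroup G) (hLs : Group.IsSolvable ↥L) (hLodd : Odd (Nat.card ↥L)) (hA : IsElementaryAbelian 2 A)
    (d : ℕ) (hAd : Nat.card ↥A = 2 ^ d) (hAL : A ≤ normalizer (L : Set G))
    (hfaith : A ⊓ centralizer (L : Set G) = ⊥) : ∃ (Ai : Fin d → Subgroup G) (Li : Fin d → Subgroup G) (n : Fin d → ℕ),
      (∀ i, Ai i ≤ A ∧ Nat.card ↥(Ai i) = 2 ∧ Li i ≤ L ∧ Odd (n i) ∧ 3 ≤ n i ∧ Nonempty (↥(Ai i ⊔ Li i) ≃* DihedralGroup (n i))) ∧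
      (⨆ i, Ai i) = A ∧ ∀ i j, i ≠ j → ∀ x ∈ Ai i ⊔ Li i, ∀ y ∈ Ai j ⊔ Li j, x * y = y * x := by
  obtain ⟨X, hX1, hX2, hX3⟩ := exists_X hLs hLodd hA hAL hfaith
  obtain ⟨b, x, h1, h2, h3, h4⟩ := exists_basis hLodd hA hX1 hX3 d A le_rfl hAd
  have hodd : ∀ i, Odd (orderOf (x i)) := fun i => odd_order hLodd (hX1 _ (h2 i).1).1
  have hbx : ∀ i, b i * x i * (b i)⁻¹ = (x i)⁻¹ := fun i => by have := h3 i i; rwa [if_pos rfl] at this
  have hxi : ∀ i, x i ≠ (x i)⁻¹ := fun i => ne_inv (h2 i).2 (hodd i)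
  have hbb : ∀ i, b i * b i = 1 := fun i => by rw [← pow_two]; exact hA.2 _ (h1 i)
  have hb1 : ∀ i, b i ≠ 1 := by
    intro i h
    have := hbx i
    rw [h] at this
    apply hxi i
    rw [← this]; group
  have hcb : ∀ i j, i ≠ j → b i * x j = x j * b i := by
    intro i j hij
    have := h3 i j
    rw [if_neg hij] at this
    calc b i * x j = b i * x j * (b i)⁻¹ * b i := by group
      _ = x j * b i := by rw [this]
  refine ⟨fun i => zpowers (b i), fun i => zpowers (x i), fun i => orderOf (x i), ?_, h4, ?_⟩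
  · intro i
    refine ⟨zpowers_le.2 (h1 i), ?_, zpowers_le.2 (hX1 _ (h2 i).1).1, hodd i, ?_, ?_⟩
    · rw [Nat.card_zpowers]
      exact orderOf_eq_prime_iff.2 ⟨(pow_two _).trans (hbb i), hb1 i⟩
    · obtain ⟨k, hk⟩ := hodd i
      have : orderOf (x i) ≠ 1 := fun h => (h2 i).2 (orderOf_eq_one_iff.1 h)
      show 3 ≤ orderOf (x i)
      omega
    · have hba : b i ∉ zpowers (x i) := by
        intro h
        obtain ⟨k, hk⟩ := mem_zpowers_iff.1 h
        have h5 : b i * x i = x i * b i := by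
          rw [← hk]
          exact (Commute.zpow_left (Commute.refl (x i)) k)
        apply hxi i
        rw [← hbx i, h5]; group
      have h5 := CfsgLib.Dihedral.nonempty_equiv_dihedral rfl (hbb i) (hbx i) hba
      have h6 : closure ({x i, b i} : Set G) = zpowers (b i) ⊔ zpowers (x i) := by
        rw [sup_comm, zpowers_eq_closure, zpowers_eq_closure, ← Subgroup.closure_union]
        rfl
      rw [h6] at h5
      exact h5
  · intro i j hij
    have h5 : zpowers (b j) ⊔ zpowers (x j) ≤ centralizer ((zpowers (b i) ⊔ zpowers (x i) : Subgroup G) : Set G) := by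
      have h6 : zpowers (b i) ⊔ zpowers (x i) ≤ centralizer ({b j, x j} : Set G) := by
        apply sup_le
        · rw [zpowers_le, mem_centralizer_iff]
          intro z hz
          rcases hz with rfl | hz
          · exact comm_mem hA (h1 j) (h1 i)
          · rw [Set.mem_singleton_iff] at hz
            rw [hz]; exact (hcb i j hij).symm
        · rw [zpowers_le, mem_centralizer_iff]
          intro z hz
          rcases hz with rfl | hz
          · exact hcb j i hij.symm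
          · rw [Set.mem_singleton_iff] at hz
            rw [hz]; exact hX2 _ (h2 j).1 _ (h2 i).1
      have h7 : ∀ z ∈ ({b j, x j} : Set G), z ∈ centralizer ((zpowers (b i) ⊔ zpowers (x i) : Subgroup G) : Set G) := by
        intro z hz
        rw [mem_centralizer_iff]
        intro y hy
        exact (mem_centralizer_iff.1 (h6 hy) z hz).symm
      exact sup_le (zpowers_le.2 (h7 _ (Or.inl rfl))) (zpowers_le.2 (h7 _ (Or.inr rfl)))
    intro y hy z hz
    exact (mem_centralizer_iff.1 (h5 hz) y hy)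

end CfsgLib.TD8
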