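import Cfsg.Agent.LibTWiel

set_option autoImplicit false

/-! Wielandt's bound for primitive permutation groups. -/

namespace CfsgLib.TWiel2

open Subgroup Cfsg CfsgLib.Comp CfsgLib.Comp2 CfsgLib.Comp3 CfsgLib.PQ CfsgLib.TWiel
open scoped commutatorElement Pointwise

universe u

theorem index_iInf_dvd {A : Type*} [Group A] {ι : Type*} [DecidableEq ι] (s : Finset ι)
    (N : ι → Subgroup A) (hN : ∀ i, (N i).Normal) :
    (⨅ i ∈ s, N i).index ∣ ∏ i ∈ s, (N i).index := by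
  induction s using Finset.induction_on with
  | empty => simp
  | insert a s ha ih =>
    rw [Finset.iInf_insert, Finset.prod_insert ha]
    haveI := hN a
    have h1 := relIndex_inf_mul_relIndex (N a) (⨅ i ∈ s, N i) ⊤
    rw [inf_top_eq, relIndex_top_right, relIndex_top_right] at h1
    rw [← h1]
    exact Nat.mul_dvd_mul (relIndex_dvd_index_of_normal _ _) ih

theorem normalCore_index_dvd {M : Type*} [Group M] [Finite M] (H : Subgroup M) :
    H.normalCore.index ∣ (H.index).factorial := by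
  rw [Subgroup.normalCore_eq_ker, index_ker]
  refine (Subgroup.card_subgroup_dvd_card _).trans ?_
  have : Nat.card (Equiv.Perm (M ⧸ H)) = (Nat.card (M ⧸ H)).factorial := by
    classical
    haveI : Fintype (M ⧸ H) := Fintype.ofFinite _
    rw [Nat.card_eq_fintype_card, Fintype.card_perm, Nat.card_eq_fintype_card]
  rw [this]
  exact dvd_rfl

theorem core_step {M : Type*} [Group M] [Finite M] (A K D : Subgroup M) [hA : A.Normal]
    (hAD : A ≤ D) (hDK : D ≤ normalizer (K : Set M)) :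
    K.normalCore.relIndex A ∣ (K.relIndex A) ^ D.index := by
  classical
  haveI : Fintype (M ⧸ D) := Fintype.ofFinite _
  obtain ⟨N, hN⟩ : ∃ N : M ⧸ D → Subgroup A,
    N = fun q => (K.map (MulAut.conj q.out).toMonoidHom).subgroupOf A := ⟨_, rfl⟩
  have hnorm : ∀ q, (N q).Normal := by
    intro q
    rw [hN]
    constructor
    rintro n hn ⟨a, ha⟩
    rw [mem_subgroupOf] at hn ⊢
    obtain ⟨k, hk, hkn⟩ := hn
    have h1 : q.out⁻¹ * a * q.out ∈ D := by
      apply hAD
      have := hA.conj_mem a ha q.out⁻¹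
      simpa using this
    refine ⟨(q.out⁻¹ * a * q.out) * k * (q.out⁻¹ * a * q.out)⁻¹,
      (mem_normalizer_iff.1 (hDK h1) k).1 hk, ?_⟩
    have h2 : q.out * k * q.out⁻¹ = n := hkn
    change q.out * ((q.out⁻¹ * a * q.out) * k * (q.out⁻¹ * a * q.out)⁻¹) * q.out⁻¹ =
      a * n * a⁻¹
    rw [← h2]; group
  have hidx : ∀ q, (N q).index = K.relIndex A := by
    intro q
    rw [hN]
    change (K.map (MulAut.conj q.out).toMonoidHom).relIndex A = _
    have h1 : A.map (MulAut.conj q.out).toMonoidHom = A := by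
      rw [CfsgLib.PSub.map_conj_eq_iff_mem_normalizer, normalizer_eq_top]; trivial
    conv_lhs => rw [← h1]
    exact relIndex_map_map_of_injective _ _ (MulAut.conj q.out).injective
  have hle : (⨅ q ∈ (Finset.univ : Finset (M ⧸ D)), N q) ≤ K.normalCore.subgroupOf A := by
    intro y hy
    rw [mem_subgroupOf]
    intro g
    have h1 : y ∈ N ((g⁻¹ : M) : M ⧸ D) := by
      rw [mem_iInf] at hy
      have := hy ((g⁻¹ : M) : M ⧸ D)
      rw [mem_iInf] at this
      exact this (Finset.mem_univ _)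
    obtain ⟨⟨d, hd⟩, hdd⟩ := QuotientGroup.mk_out_eq_mul D g⁻¹
    rw [hN] at h1
    obtain ⟨k, hk, hky⟩ := mem_subgroupOf.1 h1
    have h2 : (g⁻¹ * d) * k * (g⁻¹ * d)⁻¹ = y := by
      rw [← hdd]
      exact hky
    have h3 : g * (y : M) * g⁻¹ = d * k * d⁻¹ := by
      rw [← h2]; group
    rw [h3]
    exact (mem_normalizer_iff.1 (hDK hd) k).1 hk
  have h1 := index_iInf_dvd Finset.univ N hnorm
  have h2 : ∏ q : M ⧸ D, (N q).index = (K.relIndex A) ^ D.index := by
    rw [Finset.prod_congr rfl (fun q _ => hidx q), Finset.prod_const, Finset.card_univ,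
      ← Nat.card_eq_fintype_card]
    rfl
  rw [h2] at h1
  exact (index_dvd_of_le hle).trans h1

variable {G : Type u} [Group G] [Finite G]

/-- the core in `M` of `K` -/
def core (M K : Subgroup G) : Subgroup G := (K.subgroupOf M).normalCore.map M.subtype

theorem core_subgroupOf (M K : Subgroup G) :
    (core M K).subgroupOf M = (K.subgroupOf M).normalCore :=
  comap_map_eq_self_of_injective (subtype_injective _) _

theorem bound (M₁ M₂ : Subgroup G) (d : ℕ) (h1 : M₂.relIndex M₁ = d) (h2 : M₁.relIndex M₂ = d) :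
    (core M₁ (core M₁ (M₁ ⊓ M₂) ⊓ core M₂ (M₁ ⊓ M₂))).relIndex M₁ ∣
      d.factorial * (d - 1).factorial ^ d := by
  obtain ⟨D, hD⟩ : ∃ D, D = M₁ ⊓ M₂ := ⟨_, rfl⟩
  rw [← hD]
  have hDM₁ : D ≤ M₁ := hD ▸ inf_le_left
  have hDM₂ : D ≤ M₂ := hD ▸ inf_le_right
  obtain ⟨A₁, hA₁⟩ : ∃ A₁, A₁ = core M₁ D := ⟨_, rfl⟩
  obtain ⟨B₁, hB₁⟩ : ∃ B₁, B₁ = core M₂ D := ⟨_, rfl⟩
  rw [← hA₁, ← hB₁]
  obtain ⟨a1, a2, -⟩ := core_props hDM₁
  obtain ⟨b1, b2, -⟩ := core_props hDM₂
  have a1 : A₁ ≤ D := hA₁ ▸ a1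
  have a2 : M₁ ≤ normalizer (A₁ : Set G) := hA₁ ▸ a2
  have b1 : B₁ ≤ D := hB₁ ▸ b1
  have b2 : M₂ ≤ normalizer (B₁ : Set G) := hB₁ ▸ b2
  have d1 : D.relIndex M₁ = d := by
    rw [hD, inf_comm, inf_relIndex_right]; exact h1
  have d2 : D.relIndex M₂ = d := by
    rw [hD, inf_relIndex_right]; exact h2
  have hd0 : 0 < d := by
    rw [← d1]
    exact Nat.pos_of_ne_zero (index_ne_zero_of_finite (H := D.subgroupOf M₁))
  -- (1)
  have s1 : A₁.relIndex M₁ ∣ d.factorial := by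
    have : A₁.relIndex M₁ = ((D.subgroupOf M₁).normalCore).index := by
      rw [hA₁]
      change ((core M₁ D).subgroupOf M₁).index = _
      rw [core_subgroupOf]
    rw [this, ← d1]
    exact normalCore_index_dvd _
  have s2 : B₁.relIndex D ∣ (d - 1).factorial := by
    have e1 : B₁.relIndex M₂ ∣ d.factorial := by
      have : B₁.relIndex M₂ = ((D.subgroupOf M₂).normalCore).index := by
        rw [hB₁]
        change ((core M₂ D).subgroupOf M₂).index = _
        rw [core_subgroupOf]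
      rw [this, ← d2]
      exact normalCore_index_dvd _
    rw [← relIndex_mul_relIndex _ _ _ b1 hDM₂, d2, ← Nat.mul_factorial_pred hd0.ne', mul_comm] at e1
    exact Nat.dvd_of_mul_dvd_mul_left hd0 e1
  have s3 : (A₁ ⊓ B₁).relIndex A₁ ∣ (d - 1).factorial := by
    rw [inf_relIndex_left]
    refine dvd_trans ?_ s2
    haveI : (B₁.subgroupOf D).Normal :=
      (normal_subgroupOf_iff_le_normalizer b1).2 (hDM₂.trans b2)
    rw [← relIndex_subgroupOf (H := B₁) a1]
    exact relIndex_dvd_index_of_normal _ _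
  have s4 : (core M₁ (A₁ ⊓ B₁)).relIndex A₁ ∣ (d - 1).factorial ^ d := by
    haveI : (A₁.subgroupOf M₁).Normal :=
      (normal_subgroupOf_iff_le_normalizer (a1.trans hDM₁)).2 a2
    have h3 := core_step (A₁.subgroupOf M₁) ((A₁ ⊓ B₁).subgroupOf M₁) (D.subgroupOf M₁)
      (fun x hx => a1 hx) (by
        intro x hx
        rw [mem_normalizer_iff]
        intro y
        rw [mem_subgroupOf, mem_subgroupOf, mem_inf, mem_inf]
        exact and_congr (mem_normalizer_iff.1 (a2 x.2) y)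
          (mem_normalizer_iff.1 (b2 (hDM₂ hx)) y))
    have e1 : (core M₁ (A₁ ⊓ B₁)).relIndex A₁ =
        (((A₁ ⊓ B₁).subgroupOf M₁).normalCore).relIndex (A₁.subgroupOf M₁) := by
      rw [← relIndex_subgroupOf (H := core M₁ (A₁ ⊓ B₁)) (a1.trans hDM₁), core_subgroupOf]
    have e2 : ((A₁ ⊓ B₁).subgroupOf M₁).relIndex (A₁.subgroupOf M₁) = (A₁ ⊓ B₁).relIndex A₁ :=
      relIndex_subgroupOf (a1.trans hDM₁)
    have e3 : (D.subgroupOf M₁).index = d := d1
    rw [← e1, e2, e3] at h3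
    exact h3.trans (pow_dvd_pow_of_dvd s3 d)
  have hle : core M₁ (A₁ ⊓ B₁) ≤ A₁ :=
    (core_props (inf_le_left.trans (a1.trans hDM₁))).1.trans inf_le_left
  rw [← relIndex_mul_relIndex _ _ _ hle (a1.trans hDM₁), mul_comm]
  exact Nat.mul_dvd_mul s1 s4

/-- the sequences -/
def seqs (M₁ M₂ : Subgroup G) : ℕ → Subgroup G × Subgroup G
  | 0 => (M₁, M₂)
  | (i + 1) => (core M₁ ((seqs M₁ M₂ i).1 ⊓ (seqs M₁ M₂ i).2),
      core M₂ ((seqs M₁ M₂ i).1 ⊓ (seqs M₁ M₂ i).2))

theorem main (M₁ M₂ : Subgroup G) (hmax : IsCoatom M₁) (g : G)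
    (hconj : M₂ = M₁.map (MulAut.conj g).toMonoidHom) (hne : M₁ ≠ M₂) (hcore : M₁.normalCore = ⊥)
    (hA : core M₁ (core M₁ (M₁ ⊓ M₂) ⊓ core M₂ (M₁ ⊓ M₂)) ≠ ⊥)
    (hB : core M₂ (core M₁ (M₁ ⊓ M₂) ⊓ core M₂ (M₁ ⊓ M₂)) ≠ ⊥) :
    ∃ p : ℕ, p.Prime ∧ IsPGroup p (core M₁ (core M₁ (M₁ ⊓ M₂) ⊓ core M₂ (M₁ ⊓ M₂))) ∧
      generalizedFittingSubgroup ↥M₁ = pCore p ↥M₁ := by
  obtain ⟨p, hp, h1, h2, -⟩ := goal M₁ M₂ hmax g hconj hne hcore
    (fun i => (seqs M₁ M₂ i).1) (fun i => (seqs M₁ M₂ i).2) rfl rfl (fun i => rfl) (fun i => rfl)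
    hA hB
  exact ⟨p, hp, h1.to_le le_sup_left, h2⟩

/-- the permutation group version -/
theorem perm_data {Ω : Type*} [MulAction G Ω] [FaithfulSMul G Ω] [Finite Ω]
    (hprim : MulAction.IsPreprimitive G Ω) (a b : Ω) (d : ℕ)
    (hd : Nat.card (MulAction.orbit (MulAction.stabilizer G a) b) = d) (h2 : 2 ≤ d) :
    IsCoatom (MulAction.stabilizer G a) ∧ (∃ g : G, MulAction.stabilizer G b =
      (MulAction.stabilizer G a).map (MulAut.conj g).toMonoidHom) ∧
    MulAction.stabilizer G a ≠ MulAction.stabilizer G b ∧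
    (MulAction.stabilizer G a).normalCore = ⊥ ∧
    (MulAction.stabilizer G b).relIndex (MulAction.stabilizer G a) = d ∧
    (MulAction.stabilizer G a).relIndex (MulAction.stabilizer G b) = d ∧
    Nat.card (MulAction.stabilizer G a) = Nat.card (MulAction.stabilizer G b) := by
  have hrel : (MulAction.stabilizer G b).relIndex (MulAction.stabilizer G a) = d := by
    rw [← hd]
    have h3 : (MulAction.stabilizer G b).subgroupOf (MulAction.stabilizer G a) =
        MulAction.stabilizer (MulAction.stabilizer G a) b := by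
      ext x; rfl
    rw [relIndex, h3, MulAction.index_stabilizer]
    rfl
  have hne : MulAction.stabilizer G a ≠ MulAction.stabilizer G b := by
    intro h
    rw [h, relIndex_self] at hrel
    omega
  have hab : a ≠ b := fun h => hne (by rw [h])
  haveI : Nontrivial Ω := ⟨a, b, hab⟩
  haveI htr : MulAction.IsPretransitive G Ω := hprim.toIsPretransitive
  obtain ⟨g, hg⟩ := MulAction.exists_smul_eq G a b
  have hconj : MulAction.stabilizer G b =
      (MulAction.stabilizer G a).map (MulAut.conj g).toMonoidHom := by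
    rw [← hg]
    exact MulAction.stabilizer_smul_eq_stabilizer_map_conj g a
  have hcard : Nat.card (MulAction.stabilizer G a) = Nat.card (MulAction.stabilizer G b) := by
    rw [hconj]
    exact (card_map_of_injective (MulAut.conj g).injective).symm
  refine ⟨(MulAction.isCoatom_stabilizer_iff_preprimitive G a).2 hprim, ⟨g, hconj⟩, hne, ?_, hrel,
    ?_, hcard⟩
  · rw [eq_bot_iff]
    intro x hx
    rw [mem_bot]
    apply FaithfulSMul.eq_of_smul_eq_smul (α := Ω)
    intro w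
    obtain ⟨h, rfl⟩ := MulAction.exists_smul_eq G a w
    have h1 : h⁻¹ * x * h ∈ MulAction.stabilizer G a := by
      have := hx h⁻¹
      simpa using this
    rw [MulAction.mem_stabilizer_iff, mul_smul, mul_smul, inv_smul_eq_iff] at h1
    rw [h1, one_smul]
  · have h3 := relIndex_mul_relIndex ⊥ (MulAction.stabilizer G a ⊓ MulAction.stabilizer G b)
      (MulAction.stabilizer G a) bot_le inf_le_left
    have h4 := relIndex_mul_relIndex ⊥ (MulAction.stabilizer G a ⊓ MulAction.stabilizer G b)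
      (MulAction.stabilizer G b) bot_le inf_le_right
    rw [relIndex_bot_left, relIndex_bot_left] at h3 h4
    rw [inf_relIndex_right] at h4
    rw [inf_relIndex_left, hrel, hcard, ← h4] at h3
    exact (Nat.eq_of_mul_eq_mul_left Nat.card_pos h3).symm

theorem both {Ω : Type*} [MulAction G Ω] [FaithfulSMul G Ω] [Finite Ω]
    (hprim : MulAction.IsPreprimitive G Ω) (a b : Ω) (d : ℕ)
    (hd : Nat.card (MulAction.orbit (MulAction.stabilizer G a) b) = d) (h2 : 2 ≤ d) :
    (∃ p : ℕ, p.Prime ∧ ∃ P : Subgroup G, P ≤ MulAction.stabilizer G a ∧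
      P ≤ MulAction.stabilizer G b ∧ MulAction.stabilizer G a ≤ normalizer (P : Set G) ∧
      IsPGroup p P ∧ P ≠ ⊥ ∧
      P.relIndex (MulAction.stabilizer G a) ∣ d.factorial * (d - 1).factorial ^ d ∧
      generalizedFittingSubgroup ↥(MulAction.stabilizer G a) =
        pCore p ↥(MulAction.stabilizer G a)) ∨
    Nat.card (MulAction.stabilizer G a) ∣ d.factorial * (d - 1).factorial ^ d := by
  obtain ⟨hmax, ⟨g, hconj⟩, hne, hcore, r1, r2, hcard⟩ := perm_data hprim a b d hd h2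
  obtain ⟨M₁, hM₁⟩ : ∃ M₁, M₁ = MulAction.stabilizer G a := ⟨_, rfl⟩
  obtain ⟨M₂, hM₂⟩ : ∃ M₂, M₂ = MulAction.stabilizer G b := ⟨_, rfl⟩
  rw [← hM₁] at hmax hconj hne hcore r1 r2 hcard ⊢
  rw [← hM₂] at hconj hne r1 r2 hcard ⊢
  have b1 := bound M₁ M₂ d r1 r2
  have b2 := bound M₂ M₁ d r2 r1
  rw [inf_comm M₂ M₁, inf_comm (core M₂ (M₁ ⊓ M₂))] at b2
  by_cases hA : core M₁ (core M₁ (M₁ ⊓ M₂) ⊓ core M₂ (M₁ ⊓ M₂)) = ⊥
  · right
    rwa [hA, relIndex_bot_left] at b1
  by_cases hB : core M₂ (core M₁ (M₁ ⊓ M₂) ⊓ core M₂ (M₁ ⊓ M₂)) = ⊥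
  · right
    rwa [hB, relIndex_bot_left, ← hcard] at b2
  left
  obtain ⟨p, hp, h3, h4⟩ := main M₁ M₂ hmax g hconj hne hcore hA hB
  have hle : core M₁ (M₁ ⊓ M₂) ⊓ core M₂ (M₁ ⊓ M₂) ≤ M₁ ⊓ M₂ :=
    inf_le_left.trans (core_props inf_le_left).1
  have hc := core_props (M := M₁) (K := core M₁ (M₁ ⊓ M₂) ⊓ core M₂ (M₁ ⊓ M₂))
    (hle.trans inf_le_left)
  exact ⟨p, hp, _, hc.1.trans (hle.trans inf_le_left), hc.1.trans (hle.trans inf_le_right), hc.2.1,
    h3, hA, b1, h4⟩

theorem wielandt {Ω : Type*} [MulAction G Ω] [FaithfulSMul G Ω] [Finite Ω]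
    (hprim : MulAction.IsPreprimitive G Ω) (a b : Ω) (d : ℕ)
    (hd : Nat.card (MulAction.orbit (MulAction.stabilizer G a) b) = d) (h2 : 2 ≤ d) :
    ∃ p : ℕ, p.Prime ∧ ∃ P : Subgroup (MulAction.stabilizer G a), P.Normal ∧ IsPGroup p P ∧
      (∀ g : P, ((g : MulAction.stabilizer G a) : G) • b = b) ∧
      P.index ∣ Nat.factorial d * (Nat.factorial (d - 1)) ^ d := by
  rcases both hprim a b d hd h2 with ⟨p, hp, P, h1, h3, h4, h5, -, h6, -⟩ | h
  · refine ⟨p, hp, P.subgroupOf _, (normal_subgroupOf_iff_le_normalizer h1).2 h4, ?_, ?_, h6⟩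
    · exact h5.comap_of_injective _ (subtype_injective _)
    · intro g
      exact MulAction.mem_stabilizer_iff.1 (h3 (mem_subgroupOf.1 g.2))
  · refine ⟨2, Nat.prime_two, ⊥, inferInstance, IsPGroup.of_bot, ?_, ?_⟩
    · rintro ⟨g, hg⟩
      rw [mem_bot] at hg
      change (g : G) • b = b
      rw [hg]; exact one_smul _ _
    · rwa [Subgroup.index_bot]

theorem not_constrained {Ω : Type*} [MulAction G Ω] [FaithfulSMul G Ω] [Finite Ω]
    (hprim : MulAction.IsPreprimitive G Ω) (a b : Ω) (d : ℕ)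
    (hd : Nat.card (MulAction.orbit (MulAction.stabilizer G a) b) = d) (h2 : 2 ≤ d)
    (hnc : ∀ p : ℕ, p.Prime → generalizedFittingSubgroup (MulAction.stabilizer G a) ≠
      pCore p (MulAction.stabilizer G a)) :
    Nat.card (MulAction.stabilizer G a) ∣ Nat.factorial d * (Nat.factorial (d - 1)) ^ d := by
  rcases both hprim a b d hd h2 with ⟨p, hp, P, h1, h3, h4, h5, h7, h6, h8⟩ | h
  · exact absurd h8 (hnc p hp)
  · exact h

/-- `O_p(M₁ ∩ M₂) ≤ A₁` forces it to be trivial -/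
theorem core_trivial (M₁ M₂ : Subgroup G)
    (hM : ∀ Z : Subgroup G, Z ≠ ⊥ → Z ≤ M₁ → M₁ ≤ normalizer (Z : Set G) →
      normalizer (Z : Set G) ≤ M₁)
    (hN : ∀ Z : Subgroup G, Z ≠ ⊥ → Z ≤ M₂ → M₂ ≤ normalizer (Z : Set G) →
      normalizer (Z : Set G) ≤ M₂) (hne : M₁ ≠ M₂)
    {p : ℕ} [hp : Fact p.Prime] (hcard : Nat.card (pCore p M₁) = Nat.card (pCore p M₂))
    (hle : (pCore p ↥(M₁ ⊓ M₂)).map (M₁ ⊓ M₂).subtype ≤ core M₁ (M₁ ⊓ M₂)) :
    pCore p ↥(M₁ ⊓ M₂) = ⊥ := by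
  obtain ⟨D, hD⟩ : ∃ D, D = M₁ ⊓ M₂ := ⟨_, rfl⟩
  rw [← hD] at hle ⊢
  have hDM₁ : D ≤ M₁ := hD ▸ inf_le_left
  have hDM₂ : D ≤ M₂ := hD ▸ inf_le_right
  obtain ⟨A₁, hA₁⟩ : ∃ A₁, A₁ = core M₁ D := ⟨_, rfl⟩
  rw [← hA₁] at hle
  obtain ⟨a1, a2, -⟩ := core_props hDM₁
  have a1 : A₁ ≤ D := hA₁ ▸ a1
  have a2 : M₁ ≤ normalizer (A₁ : Set G) := hA₁ ▸ a2
  obtain ⟨Q, hQ⟩ : ∃ Q, Q = (pCore p D).map D.subtype := ⟨_, rfl⟩
  rw [← hQ] at hle
  by_contra hne1
  have hQne : Q ≠ ⊥ := hQ ▸ map_ne_bot hne1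
  have hQp : IsPGroup p Q := hQ ▸ (CfsgLib.Cores.pCore_isPGroup (G := D) p).map _
  have hDQ : D ≤ normalizer (Q : Set G) := hQ ▸ CfsgLib.BenderMax.le_normalizer_map _
  have hQD : Q ≤ D := hQ ▸ map_subtype_le _
  -- `Q = O_p(A₁)`
  have hQA : Q = (pCore p A₁).map A₁.subtype := by
    apply le_antisymm
    · exact le_core_of_two le_rfl hle le_normalizer (a1.trans hDQ) hQp
    · rw [hQ]
      exact le_core_of_two (map_subtype_le _) a1 (CfsgLib.BenderMax.le_normalizer_map _)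
        (hDM₁.trans a2) ((CfsgLib.Cores.pCore_isPGroup (G := A₁) p).map _)
  have hMQ : M₁ ≤ normalizer (Q : Set G) := by
    refine a2.trans ?_
    rw [hQA]
    exact CfsgLib.LE.normalizer_le_normalizer_map_of_characteristic _ inferInstance
  have hNQ : normalizer (Q : Set G) ≤ M₁ := hM Q hQne (hQD.trans hDM₁) hMQ
  obtain ⟨R, hR⟩ : ∃ R, R = (pCore p M₁).map M₁.subtype := ⟨_, rfl⟩
  obtain ⟨S, hS⟩ : ∃ S, S = (pCore p M₂).map M₂.subtype := ⟨_, rfl⟩
  have hRp : IsPGroup p R := hR ▸ (CfsgLib.Cores.pCore_isPGroup (G := M₁) p).map _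
  have hSp : IsPGroup p S := hS ▸ (CfsgLib.Cores.pCore_isPGroup (G := M₂) p).map _
  have hRM : R ≤ M₁ := hR ▸ map_subtype_le _
  have hSM : S ≤ M₂ := hS ▸ map_subtype_le _
  have hMR : M₁ ≤ normalizer (R : Set G) := hR ▸ CfsgLib.BenderMax.le_normalizer_map _
  have hMS : M₂ ≤ normalizer (S : Set G) := hS ▸ CfsgLib.BenderMax.le_normalizer_map _
  have hQR : Q ≤ R := by
    rw [hR]
    exact le_core_of_two le_rfl (hQD.trans hDM₁) le_normalizer hMQ hQp
  have hcRS : Nat.card R = Nat.card S := by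
    rw [hR, hS, card_map_of_injective (subtype_injective _),
      card_map_of_injective (subtype_injective _)]
    exact hcard
  have hRne : R ≠ ⊥ := fun h => hQne (le_bot_iff.1 (h ▸ hQR))
  have hSne : S ≠ ⊥ := by
    intro h
    apply hRne
    rw [← Subgroup.card_eq_one, hcRS, h, Subgroup.card_bot]
  have hRS : R ≠ S := by
    intro he
    apply hne
    apply le_antisymm
    · exact hMR.trans (he ▸ hN S hSne hSM hMS)
    · exact (he ▸ hMS).trans (hM R hRne hRM hMR)
  -- `S ⊓ M₁ ≤ Q`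
  have hSQ : S ⊓ M₁ ≤ Q := by
    rw [hQ]
    have hSD : S ⊓ M₁ ≤ D := hD ▸ le_inf inf_le_right (inf_le_left.trans hSM)
    apply le_core_of_two le_rfl hSD le_normalizer _ (hSp.to_le inf_le_left)
    intro y hy
    rw [mem_normalizer_iff]
    intro z
    rw [mem_inf, mem_inf]
    exact and_congr (mem_normalizer_iff.1 (hMS (hDM₂ hy)) z)
      (mem_normalizer_iff.1 (le_normalizer (hDM₁ hy)) z)
  have hQSn : Q ≤ normalizer (S : Set G) := (hQD.trans hDM₂).trans hMS
  have hQSp : IsPGroup p (Q ⊔ S : Subgroup G) := hQp.to_sup_of_normal_right' hSp hQSn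
  have hSnQ : ¬ S ≤ Q := by
    intro h
    exact hRS (Subgroup.eq_of_le_of_card_ge (h.trans hQR) hcRS.le).symm
  have hlt : Q < Q ⊔ S := by
    refine lt_of_le_of_ne le_sup_left ?_
    intro he
    exact hSnQ (he ▸ le_sup_right)
  have hlt2 := CfsgLib.SolvCoprime.lt_inf_normalizer_of_pgroup hQSp hlt
  apply hlt2.not_ge
  intro g hg
  obtain ⟨hg1, hg2⟩ := mem_inf.1 hg
  have hgM : g ∈ M₁ := hNQ hg2
  obtain ⟨r, hr, s, hs, rfl⟩ := (CfsgLib.LE.mem_sup_of_le_normalizer hQSn).1 hg1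
  have hsM : s ∈ M₁ := by
    have := mul_mem (inv_mem (hRM (hQR hr))) hgM
    simpa using this
  exact mul_mem hr (hSQ (mem_inf.2 ⟨hs, hsM⟩))

theorem fitting_trivial {Ω : Type*} [MulAction G Ω] [FaithfulSMul G Ω] [Finite Ω]
    (hprim : MulAction.IsPreprimitive G Ω) (a b : Ω) (d : ℕ)
    (hd : Nat.card (MulAction.orbit (MulAction.stabilizer G a) b) = d) (h2 : 2 ≤ d)
    (hF : Cfsg.fittingSubgroup ↥(((MulAction.stabilizer G b).subgroupOf
      (MulAction.stabilizer G a)).map (MulAction.toPermHom (MulAction.stabilizer G a)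
      (MulAction.orbit (MulAction.stabilizer G a) b))) = ⊥) :
    Cfsg.fittingSubgroup ↥(MulAction.stabilizer G a ⊓ MulAction.stabilizer G b) = ⊥ ∧
      Nat.card (MulAction.stabilizer G a) ∣ Nat.factorial d * (Nat.factorial (d - 1)) ^ d := by
  obtain ⟨hmax, ⟨g, hconj⟩, hne, hcore, r1, r2, hcard⟩ := perm_data hprim a b d hd h2
  have hmax2 : IsCoatom (MulAction.stabilizer G b) := by
    rw [hconj]
    exact ((MulAut.conj g).mapSubgroup.isCoatom_iff _).2 hmax
  have hcore2 : (MulAction.stabilizer G b).normalCore = ⊥ := by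
    rw [eq_bot_iff]
    have h1 : (MulAction.stabilizer G b).normalCore ≤ (MulAction.stabilizer G a).normalCore := by
      apply normal_le_normalCore.2
      intro x hx
      have h2 : g * x * g⁻¹ ∈ (MulAction.stabilizer G b).normalCore :=
        (inferInstance : (MulAction.stabilizer G b).normalCore.Normal).conj_mem x hx g
      have h3 := normalCore_le _ h2
      rw [hconj] at h3
      obtain ⟨y, hy, hyx⟩ := h3
      have h4 : y = x := (MulAut.conj g).injective hyx
      rwa [h4] at hy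
    rw [← hcore]; exact h1
  have hM := norm_of_max hmax hcore
  have hN := norm_of_max hmax2 hcore2
  -- the Fitting subgroup is contained in the kernel
  have key : (fittingSubgroup ↥(MulAction.stabilizer G a ⊓ MulAction.stabilizer G b)).map
      (MulAction.stabilizer G a ⊓ MulAction.stabilizer G b).subtype ≤
      core (MulAction.stabilizer G a) (MulAction.stabilizer G a ⊓ MulAction.stabilizer G b) := by
    obtain ⟨f, hf⟩ : ∃ f, f = MulAction.toPermHom (MulAction.stabilizer G a)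
      (MulAction.orbit (MulAction.stabilizer G a) b) := ⟨_, rfl⟩
    rw [← hf] at hF
    have h3 : f.ker.map (MulAction.stabilizer G a).subtype ≤
        core (MulAction.stabilizer G a) (MulAction.stabilizer G a ⊓ MulAction.stabilizer G b) := by
      apply (core_props inf_le_left).2.2
      · rintro _ ⟨x, hx, rfl⟩
        refine mem_inf.2 ⟨x.2, ?_⟩
        rw [SetLike.mem_coe, MonoidHom.mem_ker, hf] at hx
        have h4 := congrArg (fun s : Equiv.Perm _ => s ⟨b, MulAction.mem_orbit_self b⟩) hx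
        exact congrArg Subtype.val h4
      · exact CfsgLib.BenderMax.le_normalizer_map _
    refine le_trans ?_ h3
    let g : ↥(MulAction.stabilizer G a ⊓ MulAction.stabilizer G b) →*
        ↥(((MulAction.stabilizer G b).subgroupOf (MulAction.stabilizer G a)).map f) :=
      { toFun := fun x => ⟨f ⟨x, (mem_inf.1 x.2).1⟩, ⟨⟨x, (mem_inf.1 x.2).1⟩,
          mem_subgroupOf.2 (mem_inf.1 x.2).2, rfl⟩⟩
        map_one' := Subtype.ext (map_one f)
        map_mul' := fun x y => Subtype.ext (map_mul f ⟨x, (mem_inf.1 x.2).1⟩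
          ⟨y, (mem_inf.1 y.2).1⟩) }
    have hg : Function.Surjective g := by
      rintro ⟨_, x, hx, rfl⟩
      exact ⟨⟨x, mem_inf.2 ⟨x.2, mem_subgroupOf.1 hx⟩⟩, rfl⟩
    rintro _ ⟨x, hx, rfl⟩
    have h4 := CfsgLib.Cores.map_fittingSubgroup_le_of_surjective g hg ⟨x, hx, rfl⟩
    rw [hF, mem_bot] at h4
    have h5 : f ⟨x, (mem_inf.1 x.2).1⟩ = 1 := congrArg Subtype.val h4
    exact ⟨⟨x, (mem_inf.1 x.2).1⟩, h5, rfl⟩
  have hbot : ∀ p : ℕ, p.Prime →
      pCore p ↥(MulAction.stabilizer G a ⊓ MulAction.stabilizer G b) = ⊥ := by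
    intro p hp
    haveI := Fact.mk hp
    apply core_trivial _ _ hM hN hne
    · have e : MulAction.stabilizer G a ≃* MulAction.stabilizer G b :=
        ((MulAction.stabilizer G a).equivMapOfInjective _ (MulAut.conj g).injective).trans
          (MulEquiv.subgroupCongr hconj.symm)
      rw [← CfsgLib.Cores.map_pCore_equiv p e]
      exact (card_map_of_injective e.injective).symm
    · exact (map_mono (CfsgLib.Cores.pCore_le_fittingSubgroup p)).trans key
  have hfit : Cfsg.fittingSubgroup ↥(MulAction.stabilizer G a ⊓ MulAction.stabilizer G b) = ⊥ := by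
    rw [CfsgLib.Cores.fittingSubgroup_eq_iSup_pCore, eq_bot_iff]
    apply iSup_le
    intro r
    rw [hbot r r.2]
  refine ⟨hfit, ?_⟩
  rcases both hprim a b d hd h2 with ⟨p, hp, P, h1, h3, h4, h5, h7, h6, h8⟩ | h
  · exfalso
    haveI := Fact.mk hp
    apply h7
    have h9 : P ≤ (pCore p ↥(MulAction.stabilizer G a ⊓ MulAction.stabilizer G b)).map
        (MulAction.stabilizer G a ⊓ MulAction.stabilizer G b).subtype :=
      le_core_of_two le_rfl (le_inf h1 h3) le_normalizer (inf_le_left.trans h4) h5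
    rw [hbot p hp, Subgroup.map_bot, le_bot_iff] at h9
    exact h9
  · exact h

end CfsgLib.TWiel2
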