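import Cfsg.Agent.EqBase
import Cfsg.Agent.LibExc
import Cfsg.Agent.LibCharBasic3
import Cfsg.Agent.LibBlockOrth

set_option autoImplicit false
set_option linter.all false
set_option maxHeartbeats 1000000

/-! # TI subgroups of type 3^3 : 2^2 (helper20): induction -/

namespace CfsgLib.Ti27

open Cfsg CfsgLib.CharBasic CfsgLib.CharIndA CfsgLib.Exc
open scoped ComplexConjugate

universe u

abbrev A := Fin 3 → ZMod 3

/-- the sign vectors -/
def S : Fin 4 → A := ![![1,1,1], ![-1,-1,1], ![-1,1,-1], ![1,-1,-1]]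

theorem S_inv (i : Fin 4) (a : A) : S i * (S i * a) = a := by
  revert i a; decide

theorem S_ne (i : Fin 4) (a : A) (h : a ≠ 0) : S i * a ≠ 0 := by
  intro h0
  apply h
  rw [← S_inv i a, h0, mul_zero]

theorem S_zero (a : A) : S 0 * a = a := by
  revert a; decide

structure Cfg {G : Type u} [Group G] (H : Subgroup G) (φ : A → G) (W : Fin 4 → G) : Prop where
  add : ∀ a b, φ (a + b) = φ a * φ b
  inj : Function.Injective φ
  cj : ∀ i a, W i * φ a = φ (S i * a) * W i
  surj : ∀ h ∈ H, ∃ a i, h = φ a * W i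
  uniq : ∀ a b i j, φ a * W i = φ b * W j → a = b ∧ i = j
  mem : ∀ a i, φ a * W i ∈ H
  W0 : W 0 = 1
  ti : ∀ g a b, a ≠ 0 → g * φ a = φ b * g → g ∈ H
  cube : ∀ f ∈ H, f ^ 3 = 1 → ∃ a, f = φ a

namespace Cfg

variable {G : Type u} [Group G] {H : Subgroup G} {φ : A → G} {W : Fin 4 → G} (C : Cfg H φ W)
include C

theorem zero : φ 0 = 1 := by
  have h := C.add 0 0
  rw [add_zero] at h
  exact left_eq_mul.mp h

theorem neg (a : A) : φ (-a) = (φ a)⁻¹ := by
  rw [eq_inv_iff_mul_eq_one, ← C.add, neg_add_cancel, C.zero]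

theorem comm (a b : A) : φ a * φ b = φ b * φ a := by rw [← C.add, add_comm, C.add]

theorem ne_one {a : A} (h : a ≠ 0) : φ a ≠ 1 := by
  intro h1
  rw [← C.zero] at h1
  exact h (C.inj h1)

theorem mem_phi (a : A) : φ a ∈ H := by
  have := C.mem a 0
  rwa [C.W0, mul_one] at this

/-- the subgroup of order 27 -/
def T : Subgroup G where
  carrier := Set.range φ
  mul_mem' := by
    rintro _ _ ⟨a, rfl⟩ ⟨b, rfl⟩
    exact ⟨a + b, C.add a b⟩
  one_mem' := ⟨0, C.zero⟩
  inv_mem' := by
    rintro _ ⟨a, rfl⟩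
    exact ⟨-a, C.neg a⟩

theorem phi_mem (a : A) : φ a ∈ C.T := ⟨a, rfl⟩

noncomputable def E : A ≃ C.T := Equiv.ofBijective (fun a => ⟨φ a, C.phi_mem a⟩)
  ⟨fun a b h => C.inj (congrArg Subtype.val h), by rintro ⟨_, a, rfl⟩; exact ⟨a, rfl⟩⟩

theorem E_coe (a : A) : ((C.E a : C.T) : G) = φ a := rfl

theorem E_add (a b : A) : C.E (a + b) = C.E a * C.E b := Subtype.ext (C.add a b)

theorem E_zero : C.E 0 = 1 := Subtype.ext C.zero

theorem Esymm_mul (s t : C.T) : C.E.symm (s * t) = C.E.symm s + C.E.symm t := by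
  apply C.E.injective
  rw [Equiv.apply_symm_apply, C.E_add, Equiv.apply_symm_apply, Equiv.apply_symm_apply]

theorem Esymm_one : C.E.symm 1 = 0 := by
  rw [Equiv.symm_apply_eq, C.E_zero]

theorem card_T : Nat.card C.T = 27 := by
  rw [← Nat.card_congr C.E, Nat.card_eq_fintype_card]
  simp [A]

/-- pull back a function on `A` to `T` -/
noncomputable def L (F : A → ℂ) : C.T → ℂ := fun t => F (C.E.symm t)

theorem L_apply (F : A → ℂ) (a : A) (h : φ a ∈ C.T) : C.L F ⟨φ a, h⟩ = F a := by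
  show F (C.E.symm (C.E a)) = F a
  rw [Equiv.symm_apply_apply]

theorem L_one (F : A → ℂ) : C.L F 1 = F 0 := by
  show F (C.E.symm 1) = F 0
  rw [C.Esymm_one]

theorem W_conj (a b : A) (i : Fin 4) : (φ b * W i)⁻¹ * φ a * (φ b * W i) = φ (S i * a) := by
  have h1 := C.cj i (S i * a)
  rw [S_inv] at h1
  rw [mul_inv_rev]
  calc (W i)⁻¹ * (φ b)⁻¹ * φ a * (φ b * W i) = (W i)⁻¹ * ((φ b)⁻¹ * (φ a * φ b)) * W i := by group
    _ = (W i)⁻¹ * (φ a * W i) := by rw [C.comm a b]; group
    _ = _ := by rw [← h1]; group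

theorem sum_H [Fintype G] (F : G → ℂ) (hF : ∀ g, g ∉ H → F g = 0) :
    ∑ g : G, F g = ∑ b : A, ∑ i : Fin 4, F (φ b * W i) := by
  classical
  rw [← Finset.sum_product']
  symm
  refine Finset.sum_bij_ne_zero (fun q _ _ => φ q.1 * W q.2) ?_ ?_ ?_ ?_
  · intro q _ _; exact Finset.mem_univ _
  · intro q _ _ q' _ _ h
    obtain ⟨h1, h2⟩ := C.uniq _ _ _ _ h
    exact Prod.ext h1 h2
  · intro g _ hg
    have hgH : g ∈ H := by
      by_contra h
      exact hg (hF g h)
    obtain ⟨a, i, rfl⟩ := C.surj g hgH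
    exact ⟨(a, i), Finset.mem_univ _, hg, rfl⟩
  · intro q _ _; rfl

/-- values of induced functions on `T` -/
theorem ind_phi [Fintype G] (F : A → ℂ) {a : A} (ha : a ≠ 0) : indFun C.T (C.L F) (φ a) = ∑ i : Fin 4, F (S i * a) := by
  classical
  rw [ind_apply, C.card_T, C.sum_H]
  · have h1 : ∀ (b : A) (i : Fin 4), extendByZero C.T (C.L F) ((φ b * W i)⁻¹ * φ a * (φ b * W i)) = F (S i * a) := by
      intro b i
      rw [C.W_conj, ext_mem _ _ (C.phi_mem _), C.L_apply]
    simp only [h1, Finset.sum_const, Finset.card_univ]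
    have h2 : Fintype.card A = 27 := by simp [A]
    rw [h2, nsmul_eq_mul]
    push_cast
    ring
  · intro g hg
    apply ext_not_mem
    rintro ⟨b, hb⟩
    apply hg
    have h3 := C.ti g⁻¹ a b ha (by rw [hb]; group)
    exact (Subgroup.inv_mem_iff H).mp h3

theorem ind_one' [Fintype G] {F : A → ℂ} (h0 : F 0 = 0) : indFun C.T (C.L F) 1 = 0 := by
  rw [CharIndA.ind_one, C.L_one, h0, mul_zero]

theorem inner_T [Fintype C.T] (F F' : A → ℂ) : classInner (C.L F) (C.L F') = (27 : ℂ)⁻¹ * ∑ a, F a * conj (F' a) := by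
  rw [classInner, C.card_T]
  congr 1
  refine Fintype.sum_equiv C.E.symm _ _ (fun t => rfl)

theorem inner_ind [Fintype G] {F F' : A → ℂ} (h0 : F 0 = 0) (h0' : F' 0 = 0) :
    classInner (indFun C.T (C.L F)) (indFun C.T (C.L F')) = (27 : ℂ)⁻¹ * ∑ a, F a * conj (∑ i : Fin 4, F' (S i * a)) := by
  classical
  have hf : Fintype C.T := Fintype.ofFinite _
  rw [CharIndA.frobenius _ _ (ind_classFun _ _)]
  have h1 : (fun t : C.T => indFun C.T (C.L F') (t : G)) = C.L (fun a => ∑ i : Fin 4, F' (S i * a)) := by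
    ext t
    obtain ⟨a, rfl⟩ := C.E.surjective t
    by_cases ha : a = 0
    · subst ha
      rw [C.E_zero, C.L_one]
      show indFun C.T (C.L F') 1 = _
      rw [C.ind_one' h0']
      simp [h0']
    · show indFun C.T (C.L F') (φ a) = ∑ i : Fin 4, F' (S i * (C.E.symm (C.E a)))
      rw [C.ind_phi F' ha, Equiv.symm_apply_apply]
  rw [h1, C.inner_T]

end Cfg

/-! ### linear characters -/

noncomputable def lam (m a : A) : ℂ := (ZMod.stdAddChar : AddChar (ZMod 3) ℂ) (m ⬝ᵥ a)

theorem lam_zero (m : A) : lam m 0 = 1 := by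
  unfold lam
  rw [dotProduct_zero, AddChar.map_zero_eq_one]

theorem lam_add (m a b : A) : lam m (a + b) = lam m a * lam m b := by
  unfold lam
  rw [dotProduct_add, AddChar.map_add_eq_mul]

theorem lam_conj (m a : A) : conj (lam m a) = lam (-m) a := by
  unfold lam
  rw [neg_dotProduct, AddChar.map_neg_eq_conj]

theorem lam_mul (m m' a : A) : lam m a * lam m' a = lam (m + m') a := by
  unfold lam
  rw [add_dotProduct, AddChar.map_add_eq_mul]

theorem lam_S (m a : A) (i : Fin 4) : lam m (S i * a) = lam (S i * m) a := by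
  unfold lam
  congr 1
  simp only [dotProduct, Pi.mul_apply]
  refine Finset.sum_congr rfl fun j _ => ?_
  ring

theorem sum_lam (m : A) : ∑ a, lam m a = if m = 0 then 27 else 0 := by
  classical
  split_ifs with h
  · subst h
    have : ∀ a : A, lam 0 a = 1 := by
      intro a; unfold lam; rw [zero_dotProduct, AddChar.map_zero_eq_one]
    simp only [this, Finset.sum_const, Finset.card_univ]
    have h2 : Fintype.card A = 27 := by simp [A]
    rw [h2]; norm_num
  · obtain ⟨i, hi⟩ : ∃ i, m i ≠ 0 := by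
      by_contra hcon
      push Not at hcon
      exact h (funext hcon)
    let b : A := Pi.single i 1
    have hb : lam m b ≠ 1 := by
      intro h1
      apply hi
      have h2 : m ⬝ᵥ b = m i := by simp [b]
      unfold lam at h1
      rw [h2] at h1
      apply ZMod.injective_stdAddChar (N := 3)
      rw [h1, AddChar.map_zero_eq_one]
    have h3 : ∑ a, lam m a = lam m b * ∑ a, lam m a := by
      rw [Finset.mul_sum]
      refine (Fintype.sum_equiv (Equiv.addLeft b) _ _ (fun a => ?_)).symm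
      rw [Equiv.coe_addLeft, lam_add]
    have h4 : (1 - lam m b) * ∑ a, lam m a = 0 := by rw [sub_mul, one_mul, ← h3, sub_self]
    rcases mul_eq_zero.mp h4 with h5 | h5
    · exact absurd (sub_eq_zero.mp h5).symm hb
    · exact h5

theorem inner_lam (m m' : A) : (27 : ℂ)⁻¹ * ∑ a, lam m a * conj (lam m' a) = if m = m' then 1 else 0 := by
  have h1 : ∀ a, lam m a * conj (lam m' a) = lam (m - m') a := by
    intro a
    rw [lam_conj, lam_mul, sub_eq_add_neg]
  simp only [h1, sum_lam, sub_eq_zero]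
  split_ifs <;> norm_num

/-- number of sign vectors carrying `m'` to `m` -/
def Bn (m m' : A) : ℕ := (Finset.univ.filter (fun i : Fin 4 => m = S i * m')).card

theorem inner_lamS (m m' : A) : (27 : ℂ)⁻¹ * ∑ a, lam m a * conj (∑ i : Fin 4, lam m' (S i * a)) = Bn m m' := by
  have h1 : ∀ a, lam m a * conj (∑ i : Fin 4, lam m' (S i * a)) = ∑ i : Fin 4, lam m a * conj (lam (S i * m') a) := by
    intro a
    rw [map_sum, Finset.mul_sum]
    refine Finset.sum_congr rfl fun i _ => ?_
    rw [lam_S]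
  simp only [h1]
  rw [Finset.sum_comm, Finset.mul_sum]
  simp only [inner_lam]
  unfold Bn
  rw [Finset.card_filter]
  push_cast
  rfl

end CfsgLib.Ti27
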