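import Cfsg.Agent.LibTi27a

set_option autoImplicit false
set_option linter.all false
set_option maxHeartbeats 1000000

/-! # TI subgroups of type 3^3 : 2^2 (helper20): exceptional characters -/

namespace CfsgLib.Ti27

open Cfsg CfsgLib.CharBasic CfsgLib.CharIndA CfsgLib.Exc
open scoped ComplexConjugate

universe u

/-- Bessel's inequality -/
theorem bessel {G : Type u} [Group G] [Fintype G] {ι : Type*} [Fintype ι] (μ : ι → G → ℂ)
    (hμ : ∀ i, IsIrrCharacter G (μ i)) (hinj : Function.Injective μ) (θ : G → ℂ) (c : ι → ℤ)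
    (hc : ∀ i, classInner (μ i) θ = c i) (n : ℤ) (hn : classInner θ θ = n) :
    ∑ i, c i ^ 2 ≤ n ∧ (∑ i, c i ^ 2 = n → θ = ∑ i, (c i : ℂ) • μ i) := by
  classical
  set σ : G → ℂ := ∑ i, (c i : ℂ) • μ i with hσ
  have hortho : ∀ i j, classInner (μ i) (μ j) = if i = j then 1 else 0 := by
    intro i j
    split_ifs with h
    · rw [h]; exact irr_inner_self (hμ j)
    · exact irr_inner_ne (hμ i) (hμ j) (fun h' => h (hinj h'))
  have hcc : ∀ i, conj (c i : ℂ) = c i := fun i => map_intCast _ _
  have h1 : ∀ i, classInner (μ i) σ = c i := by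
    intro i
    rw [hσ, CharBasic.inner_sum_right]
    simp only [CharBasic.inner_smul_right, hortho, hcc, mul_ite, mul_one, mul_zero, Finset.sum_ite_eq,
      Finset.mem_univ, if_true]
  have h2 : classInner σ σ = ∑ i, (c i : ℂ) ^ 2 := by
    nth_rewrite 1 [hσ]
    rw [CharBasic.inner_sum_left]
    refine Finset.sum_congr rfl fun i _ => ?_
    rw [CharBasic.inner_smul_left, h1, sq]
  have h3 : classInner σ θ = ∑ i, (c i : ℂ) ^ 2 := by
    nth_rewrite 1 [hσ]
    rw [CharBasic.inner_sum_left]
    refine Finset.sum_congr rfl fun i _ => ?_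
    rw [CharBasic.inner_smul_left, hc, sq]
  have h4 : classInner θ σ = ∑ i, (c i : ℂ) ^ 2 := by
    rw [← CharBasic.inner_conj_symm, h3, map_sum]
    refine Finset.sum_congr rfl fun i _ => ?_
    rw [map_pow, hcc]
  have h5 : classInner (θ - σ) (θ - σ) = ((n - ∑ i, c i ^ 2 : ℤ) : ℂ) := by
    rw [CharBasic.inner_sub_left, CharBasic.inner_sub_right, CharBasic.inner_sub_right, hn, h2, h3, h4]
    push_cast
    ring
  have h6 := CharBasic.inner_self_eq (θ - σ)
  rw [h5] at h6
  have h7 : (((n - ∑ i, c i ^ 2 : ℤ) : ℝ)) = (Nat.card G : ℝ)⁻¹ * ∑ g : G, ‖(θ - σ) g‖ ^ 2 := by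
    exact_mod_cast h6
  constructor
  · have h8 : (0 : ℝ) ≤ ((n - ∑ i, c i ^ 2 : ℤ) : ℝ) := by rw [h7]; positivity
    have h9 : (0 : ℤ) ≤ n - ∑ i, c i ^ 2 := by exact_mod_cast h8
    linarith
  · intro h
    have h8 : classInner (θ - σ) (θ - σ) = 0 := by
      rw [h5, h, sub_self]; norm_num
    exact sub_eq_zero.mp (CharBasic.inner_self_eq_zero h8)

def M : Fin 5 → A := ![![1,1,0], ![1,0,1], ![0,1,1], ![1,1,1], ![1,1,-1]]

def kk (i : Fin 5) (m : A) : ℤ := (Bn (M i) m : ℤ) - Bn (M i) (M 0) - Bn (M 0) m + Bn (M 0) (M 0)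

def nn (m : A) : ℤ := (Bn m m : ℤ) - Bn m (M 0) - Bn (M 0) m + Bn (M 0) (M 0)

theorem nn_le : ∀ m : A, nn m ≤ 5 := by decide +kernel

theorem key1 : ∀ m : A, m ≠ 0 → ∀ y ∈ Finset.Icc (-2 : ℤ) 2, ∑ i, (y + kk i m) ^ 2 ≤ nn m → y = Bn (M 0) m - 1 := by
  decide +kernel

theorem key2 : ∀ y ∈ Finset.Icc (-2 : ℤ) 2, 1 + ∑ i, (y + kk i 0) ^ 2 ≤ nn 0 →
    y = -1 ∨ (y = 0 ∧ 1 + ∑ i, (y + kk i 0) ^ 2 = nn 0) := by
  decide +kernel

theorem gram1 : ∀ i : Fin 5, i ≠ 0 → kk i (M i) - kk i (M 0) = 2 ∧ kk i (M 0) = 0 := by decide +kernel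

theorem gram2 : ∀ i j : Fin 5, i ≠ 0 → j ≠ 0 → i ≠ j → kk i (M j) = 1 := by decide +kernel

theorem BM00 : Bn (M 0) (M 0) = 1 := by decide +kernel
theorem BM0 : ∀ i, Bn (M i) 0 = 0 := by decide +kernel
theorem M_ne : ∀ i, M i ≠ 0 := by decide +kernel
theorem sumkk0 : ∑ i, kk i 0 = 4 := by decide +kernel

theorem inner_lam_lam {G : Type u} [Group G] {H : Subgroup G} {φ : A → G} {W : Fin 4 → G} (C : Cfg H φ W)
    [Fintype C.T] (m m' : A) : classInner (C.L (lam m)) (C.L (lam m')) = if m = m' then 1 else 0 := by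
  rw [C.inner_T, inner_lam]

namespace Cfg

variable {G : Type u} [Group G] {H : Subgroup G} {φ : A → G} {W : Fin 4 → G} (C : Cfg H φ W)
include C

theorem irr_lam [Finite G] (m : A) : IsIrrCharacter C.T (C.L (lam m)) := by
  let f : C.T →* ℂ :=
    { toFun := fun t => lam m (C.E.symm t)
      map_one' := by rw [C.Esymm_one, lam_zero]
      map_mul' := fun s t => by rw [C.Esymm_mul, lam_add] }
  exact isIrrCharacter_hom f.toHomUnits

/-- the basic generalised characters -/
noncomputable def beta [Fintype G] (m : A) : G → ℂ := indFun C.T (C.L (fun a => lam m a - lam (M 0) a))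

theorem beta_one [Fintype G] (m : A) : C.beta m 1 = 0 := by
  unfold beta
  rw [C.ind_one']
  rw [lam_zero, lam_zero, sub_self]

theorem beta_gen [Fintype G] (m : A) : IsGeneralizedCharacter G (C.beta m) := by
  have hf : Fintype C.T := Fintype.ofFinite _
  apply gen_ind
  exact gen_sub (gen_of_irr (C.irr_lam m)) (gen_of_irr (C.irr_lam (M 0)))

theorem beta_M0 [Fintype G] : C.beta (M 0) = 0 := by
  have h : (C.L (fun a => lam (M 0) a - lam (M 0) a)) = 0 := by
    ext t
    show lam (M 0) _ - lam (M 0) _ = 0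
    rw [sub_self]
  unfold beta
  rw [h, ind_zero]

theorem inner_beta [Fintype G] (m m' : A) : classInner (C.beta m) (C.beta m') =
    (((Bn m m' : ℤ) - Bn m (M 0) - Bn (M 0) m' + Bn (M 0) (M 0) : ℤ) : ℂ) := by
  unfold beta
  rw [C.inner_ind (by rw [lam_zero, lam_zero, sub_self]) (by rw [lam_zero, lam_zero, sub_self])]
  have h1 : ∀ a : A, (lam m a - lam (M 0) a) * conj (∑ i : Fin 4, (lam m' (S i * a) - lam (M 0) (S i * a))) =
      lam m a * conj (∑ i : Fin 4, lam m' (S i * a)) - lam m a * conj (∑ i : Fin 4, lam (M 0) (S i * a)) -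
      lam (M 0) a * conj (∑ i : Fin 4, lam m' (S i * a)) + lam (M 0) a * conj (∑ i : Fin 4, lam (M 0) (S i * a)) := by
    intro a
    rw [Finset.sum_sub_distrib, map_sub]
    ring
  rw [Finset.sum_congr rfl fun a _ => h1 a, Finset.sum_add_distrib, Finset.sum_sub_distrib, Finset.sum_sub_distrib,
    mul_add, mul_sub, mul_sub, inner_lamS, inner_lamS, inner_lamS, inner_lamS]
  push_cast
  ring

theorem inner_beta_one [Fintype G] (m : A) : classInner (C.beta m) (fun _ => 1) = if m = 0 then 1 else 0 := by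
  classical
  have hf : Fintype C.T := Fintype.ofFinite _
  unfold beta
  rw [CharIndA.frobenius _ _ (irr_classFun isIrrCharacter_one)]
  have h1 : (fun t : C.T => (1 : ℂ)) = C.L (lam 0) := by
    ext t
    show (1 : ℂ) = lam 0 _
    unfold lam
    rw [zero_dotProduct, AddChar.map_zero_eq_one]
  have h2 : C.L (fun a => lam m a - lam (M 0) a) = C.L (lam m) - C.L (lam (M 0)) := rfl
  rw [h1, h2, CharBasic.inner_sub_left, inner_lam_lam, inner_lam_lam, if_neg (M_ne 0), sub_zero]

theorem main1 [Fintype G] : ∃ ε : ℤ, (ε = 1 ∨ ε = -1) ∧ ∃ μ : Fin 5 → (G → ℂ), (∀ i, IsIrrCharacter G (μ i)) ∧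
    (∀ i, C.beta (M i) = (ε : ℂ) • (μ i - μ 0)) ∧
    ∀ m i, (ε : ℂ) * classInner (μ i) (C.beta m) = (((Bn (M i) m : ℤ) - Bn (M i) (M 0) : ℤ) : ℂ) := by
  classical
  obtain ⟨ε', hε', μ, hμ, hinj, hτ⟩ := exceptional (0 : Fin 5) (fun i => C.beta (M i)) C.beta_M0
    (fun i => C.beta_gen _) (fun i => C.beta_one _)
    (fun i hi => by
      rw [C.inner_beta]
      have h1 := gram1 i hi
      have h2 : kk i (M i) = 2 := by linarith [h1.1, h1.2]
      unfold kk at h2
      rw [h2]; norm_num)
    (fun i j hi hj hij => by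
      rw [C.inner_beta]
      have h2 := gram2 i j hi hj hij
      unfold kk at h2
      rw [h2]; norm_num)
  obtain ⟨ε, hε, rfl⟩ : ∃ ε : ℤ, (ε = 1 ∨ ε = -1) ∧ ε' = (ε : ℂ) := by
    rcases hε' with h | h
    · exact ⟨1, Or.inl rfl, by rw [h]; norm_num⟩
    · exact ⟨-1, Or.inr rfl, by rw [h]; norm_num⟩
  have hεε : ε * ε = 1 := by rcases hε with h | h <;> rw [h] <;> norm_num
  have hεc : (ε : ℂ) * ε = 1 := by exact_mod_cast hεε
  refine ⟨ε, hε, μ, hμ, hτ, ?_⟩
  -- degrees
  have hdeg : ∀ i, μ i 1 = μ 0 1 := by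
    intro i
    have h1 := congrFun (hτ i) 1
    beta_reduce at h1
    rw [C.beta_one, Pi.smul_apply, Pi.sub_apply, smul_eq_mul] at h1
    have h2 : (ε : ℂ) ≠ 0 := by intro h; rw [h, mul_zero] at hεc; exact zero_ne_one hεc
    rcases mul_eq_zero.mp h1.symm with h | h
    · exact absurd h h2
    · exact sub_eq_zero.mp h
  intro m
  have hint : ∀ i, ∃ c : ℤ, classInner (μ i) (C.beta m) = c := fun i => gen_inner_int (gen_of_irr (hμ i)) (C.beta_gen m)
  choose c hc using hint
  have hrel : ∀ i, ε * c i = ε * c 0 + kk i m := by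
    intro i
    have h1 := C.inner_beta (M i) m
    have h2 := hτ i
    beta_reduce at h2
    rw [h2, CharBasic.inner_smul_left, CharBasic.inner_sub_left, hc, hc] at h1
    have h3 : ε * (c i - c 0) = kk i m := by
      unfold kk
      exact_mod_cast h1
    linarith
  have hsq : ∀ i, c i ^ 2 = (ε * c 0 + kk i m) ^ 2 := by
    intro i
    rw [← hrel i, mul_pow]
    have : ε ^ 2 = 1 := by rw [sq]; exact hεε
    rw [this, one_mul]
  have hnn : classInner (C.beta m) (C.beta m) = ((nn m : ℤ) : ℂ) := by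
    rw [C.inner_beta]; rfl
  have hB := bessel μ hμ hinj (C.beta m) c hc (nn m) hnn
  have hsum : ∑ i, c i ^ 2 = ∑ i, (ε * c 0 + kk i m) ^ 2 := Finset.sum_congr rfl fun i _ => hsq i
  have hy0 : (ε * c 0) ^ 2 ≤ 5 := by
    have h1 : c 0 ^ 2 ≤ ∑ i, c i ^ 2 := Finset.single_le_sum (f := fun i => c i ^ 2) (fun i _ => sq_nonneg _) (Finset.mem_univ 0)
    have h2 : (ε * c 0) ^ 2 = c 0 ^ 2 := by
      rw [mul_pow]
      have : ε ^ 2 = 1 := by rw [sq]; exact hεε
      rw [this, one_mul]
    have h3 := nn_le m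
    linarith [hB.1]
  have hyI : ε * c 0 ∈ Finset.Icc (-2 : ℤ) 2 := by
    rw [Finset.mem_Icc]
    constructor <;> nlinarith
  have hfin : ε * c 0 = Bn (M 0) m - 1 := by
    by_cases hm : m = 0
    · subst hm
      -- the trivial character
      have hone : ∀ i, (fun _ => 1 : G → ℂ) ≠ μ i := by
        have h1 : ∀ i, i ≠ 0 → ((fun _ => 1 : G → ℂ) = μ i ↔ (fun _ => 1 : G → ℂ) = μ 0) := by
          intro i hi
          have h2 := C.inner_beta_one (M i)
          have h3 := hτ i
          beta_reduce at h3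
          rw [if_neg (M_ne i), h3, CharBasic.inner_smul_left, CharBasic.inner_sub_left,
            irr_inner_ite (hμ i) isIrrCharacter_one, irr_inner_ite (hμ 0) isIrrCharacter_one] at h2
          have h4 : (ε : ℂ) ≠ 0 := by intro h; rw [h, mul_zero] at hεc; exact zero_ne_one hεc
          have h5 := (mul_eq_zero.mp h2).resolve_left h4
          constructor
          · intro h
            by_contra h'
            rw [if_pos h.symm, if_neg (fun h'' => h' h''.symm)] at h5
            norm_num at h5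
          · intro h
            by_contra h'
            rw [if_pos h.symm, if_neg (fun h'' => h' h''.symm)] at h5
            norm_num at h5
        intro i hi
        have h6 : (fun _ => 1 : G → ℂ) = μ 0 := by
          by_cases h0 : i = 0
          · rw [← h0]; exact hi
          · exact (h1 i h0).mp hi
        have h7 : (fun _ => 1 : G → ℂ) = μ 1 := (h1 1 (by decide)).mpr h6
        exact absurd (hinj (h6.symm.trans h7)) (by decide)
      let μ' : Option (Fin 5) → (G → ℂ) := fun o => o.elim (fun _ => 1) μ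
      let c' : Option (Fin 5) → ℤ := fun o => o.elim 1 c
      have hB' := bessel μ' (by
          intro o; cases o with
          | none => exact isIrrCharacter_one
          | some i => exact hμ i) (by
          intro o o' h
          cases o with
          | none =>
            cases o' with
            | none => rfl
            | some j => exact absurd h (hone j)
          | some i =>
            cases o' with
            | none => exact absurd h.symm (hone i)
            | some j => exact congrArg some (hinj h)) (C.beta 0) c' (by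
          intro o
          cases o with
          | none =>
            show classInner (fun _ => 1) (C.beta 0) = ((1 : ℤ) : ℂ)
            rw [← CharBasic.inner_conj_symm, C.inner_beta_one, if_pos rfl, map_one]
            norm_num
          | some i => exact hc i) (nn 0) hnn
      have hs' : ∑ o, c' o ^ 2 = 1 + ∑ i, (ε * c 0 + kk i 0) ^ 2 := by
        rw [Fintype.sum_option]
        show (1 : ℤ) ^ 2 + ∑ i, c i ^ 2 = _
        rw [hsum]; norm_num
      rw [hs'] at hB'
      rcases key2 _ hyI hB'.1 with h | ⟨h, h'⟩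
      · rw [h, BM0]; norm_num
      · exfalso
        have h8 := hB'.2 h'
        have h9 := congrFun h8 1
        rw [C.beta_one, Fintype.sum_option] at h9
        have h10 : ((c' none : ℤ) : ℂ) • μ' none = (fun _ => 1 : G → ℂ) := by
          show ((1 : ℤ) : ℂ) • (fun _ => 1 : G → ℂ) = _
          rw [Int.cast_one, one_smul]
        rw [h10] at h9
        have h11 : (∑ i, ((c' (some i) : ℤ) : ℂ) • μ' (some i)) 1 = (∑ i, (c i : ℂ)) * μ 0 1 := by
          rw [Finset.sum_apply, Finset.sum_mul]
          refine Finset.sum_congr rfl fun i _ => ?_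
          show (c i : ℂ) * μ i 1 = _
          rw [hdeg i]
        rw [Pi.add_apply, h11] at h9
        obtain ⟨d, hd, hd'⟩ := irr_one_nat (hμ 0)
        have h12 : ε * ∑ i, c i = 4 := by
          rw [Finset.mul_sum]
          have : ∑ i, ε * c i = ∑ i, kk i 0 := Finset.sum_congr rfl fun i _ => by rw [hrel i, h, zero_add]
          rw [this, sumkk0]
        rw [hd'] at h9
        have h13 : (0 : ℤ) = 1 + (∑ i, c i) * d := by exact_mod_cast h9
        have h14 : ε = ε * (∑ i, c i) * d * (-1) := by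
          have : ε * 0 = ε * (1 + (∑ i, c i) * d) := by rw [← h13]
          linarith
        rw [h12] at h14
        rcases hε with h15 | h15 <;> rw [h15] at h14 <;> omega
    · exact key1 m hm _ hyI (by rw [← hsum]; exact hB.1)
  intro i
  rw [hc i]
  have h16 : ε * c i = (Bn (M i) m : ℤ) - Bn (M i) (M 0) := by
    rw [hrel i, hfin]
    unfold kk
    rw [BM00]
    push_cast
    ring
  exact_mod_cast h16

end Cfg

end CfsgLib.Ti27
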