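import Cfsg.Agent.LibTi27b

set_option autoImplicit false
set_option linter.all false
set_option maxHeartbeats 1000000

/-! # TI subgroups of type 3^3 : 2^2 (helper20): values and the final count -/

namespace CfsgLib.Ti27

open Cfsg CfsgLib.CharBasic CfsgLib.CharIndA CfsgLib.Exc
open scoped ComplexConjugate

universe u

theorem lam_symm (m a : A) : lam m a = lam a m := by
  unfold lam; rw [dotProduct_comm]

theorem sum_lam' (a : A) : ∑ m, lam m a = if a = 0 then 27 else 0 := by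
  rw [← sum_lam a]
  exact Finset.sum_congr rfl fun m _ => lam_symm m a

/-- Fourier inversion -/
theorem inversion (F : A → ℂ) (a : A) : F a = ∑ m, ((27 : ℂ)⁻¹ * ∑ b, F b * conj (lam m b)) * lam m a := by
  classical
  have h1 : ∀ m : A, ((27 : ℂ)⁻¹ * ∑ b, F b * conj (lam m b)) * lam m a = ∑ b, (27 : ℂ)⁻¹ * F b * lam m (a - b) := by
    intro m
    rw [Finset.mul_sum, Finset.sum_mul]
    refine Finset.sum_congr rfl fun b _ => ?_
    have h2 : lam m (a - b) = conj (lam m b) * lam m a := by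
      rw [sub_eq_add_neg, lam_add, lam_conj, lam_symm (-m) b, lam_symm m (-b)]
      unfold lam
      rw [neg_dotProduct, dotProduct_neg, mul_comm]
    rw [h2]; ring
  rw [Finset.sum_congr rfl fun m _ => h1 m, Finset.sum_comm]
  simp only [← Finset.mul_sum, sum_lam', sub_eq_zero, mul_ite, mul_zero]
  rw [Finset.sum_ite_eq]
  simp
  field_simp

theorem sum_Bn (m0 a : A) : ∑ m, (Bn m0 m : ℂ) * lam m a = ∑ s : Fin 4, lam m0 (S s * a) := by
  classical
  have h1 : ∀ m, (Bn m0 m : ℂ) * lam m a = ∑ s : Fin 4, if S s * m0 = m then lam m a else 0 := by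
    intro m
    unfold Bn
    rw [Finset.card_filter]
    push_cast
    rw [Finset.sum_mul]
    refine Finset.sum_congr rfl fun s _ => ?_
    have : (m0 = S s * m) ↔ (S s * m0 = m) := by
      constructor
      · intro h; rw [h, S_inv]
      · intro h; rw [← h, S_inv]
    by_cases h : m0 = S s * m
    · rw [if_pos h, if_pos (this.mp h), one_mul]
    · rw [if_neg h, if_neg (fun h' => h (this.mpr h')), zero_mul]
  rw [Finset.sum_congr rfl fun m _ => h1 m, Finset.sum_comm]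
  refine Finset.sum_congr rfl fun s _ => ?_
  rw [Finset.sum_ite_eq, if_pos (Finset.mem_univ _), lam_S]

noncomputable def X (i : Fin 5) (a : A) : ℂ := ∑ s : Fin 4, lam (M i) (S s * a)

theorem psi_sum : (ZMod.stdAddChar : AddChar (ZMod 3) ℂ) 1 + (ZMod.stdAddChar : AddChar (ZMod 3) ℂ) 2 = -1 := by
  have h1 : ∑ x : ZMod 3, (ZMod.stdAddChar : AddChar (ZMod 3) ℂ) x = 0 := by
    apply AddChar.sum_eq_zero_of_ne_one
    intro h
    have h2 : (ZMod.stdAddChar : AddChar (ZMod 3) ℂ) 1 = 1 := by rw [h]; rfl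
    have h3 := ZMod.injective_stdAddChar (N := 3) (a₁ := 1) (a₂ := 0) (by rw [h2, AddChar.map_zero_eq_one])
    exact absurd h3 (by decide)
  have h2 : ∑ x : ZMod 3, (ZMod.stdAddChar : AddChar (ZMod 3) ℂ) x = (ZMod.stdAddChar : AddChar (ZMod 3) ℂ) 0 +
      (ZMod.stdAddChar : AddChar (ZMod 3) ℂ) 1 + (ZMod.stdAddChar : AddChar (ZMod 3) ℂ) 2 := Fin.sum_univ_three _
  rw [h2, AddChar.map_zero_eq_one] at h1
  linear_combination h1

def e1 : A := ![1,0,0]
def e2 : A := ![0,1,0]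

theorem X_eq (i : Fin 5) (a : A) (d : Fin 4 → ZMod 3) (hd : ∀ s, M i ⬝ᵥ (S s * a) = d s) :
    X i a = (ZMod.stdAddChar : AddChar (ZMod 3) ℂ) (d 0) + (ZMod.stdAddChar : AddChar (ZMod 3) ℂ) (d 1) +
      (ZMod.stdAddChar : AddChar (ZMod 3) ℂ) (d 2) + (ZMod.stdAddChar : AddChar (ZMod 3) ℂ) (d 3) := by
  unfold X lam
  rw [Fin.sum_univ_four, hd, hd, hd, hd]

theorem X0e1 : X 0 e1 = -2 := by
  rw [X_eq 0 e1 ![1,2,2,1] (by decide)]
  show (ZMod.stdAddChar : AddChar (ZMod 3) ℂ) 1 + (ZMod.stdAddChar : AddChar (ZMod 3) ℂ) 2 + (ZMod.stdAddChar : AddChar (ZMod 3) ℂ) 2 + (ZMod.stdAddChar : AddChar (ZMod 3) ℂ) 1 = -2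
  linear_combination 2 * psi_sum

theorem X0e2 : X 0 e2 = -2 := by
  rw [X_eq 0 e2 ![1,2,1,2] (by decide)]
  show (ZMod.stdAddChar : AddChar (ZMod 3) ℂ) 1 + (ZMod.stdAddChar : AddChar (ZMod 3) ℂ) 2 + (ZMod.stdAddChar : AddChar (ZMod 3) ℂ) 1 + (ZMod.stdAddChar : AddChar (ZMod 3) ℂ) 2 = -2
  linear_combination 2 * psi_sum

theorem X1e1 : X 1 e1 = -2 := by
  rw [X_eq 1 e1 ![1,2,2,1] (by decide)]
  show (ZMod.stdAddChar : AddChar (ZMod 3) ℂ) 1 + (ZMod.stdAddChar : AddChar (ZMod 3) ℂ) 2 + (ZMod.stdAddChar : AddChar (ZMod 3) ℂ) 2 + (ZMod.stdAddChar : AddChar (ZMod 3) ℂ) 1 = -2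
  linear_combination 2 * psi_sum

theorem X1e2 : X 1 e2 = 4 := by
  rw [X_eq 1 e2 ![0,0,0,0] (by decide)]
  show (ZMod.stdAddChar : AddChar (ZMod 3) ℂ) 0 + (ZMod.stdAddChar : AddChar (ZMod 3) ℂ) 0 + (ZMod.stdAddChar : AddChar (ZMod 3) ℂ) 0 + (ZMod.stdAddChar : AddChar (ZMod 3) ℂ) 0 = 4
  rw [AddChar.map_zero_eq_one]; norm_num

theorem X0zero : X 0 0 = 4 := by
  rw [X_eq 0 0 ![0,0,0,0] (by decide)]
  show (ZMod.stdAddChar : AddChar (ZMod 3) ℂ) 0 + (ZMod.stdAddChar : AddChar (ZMod 3) ℂ) 0 + (ZMod.stdAddChar : AddChar (ZMod 3) ℂ) 0 + (ZMod.stdAddChar : AddChar (ZMod 3) ℂ) 0 = 4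
  rw [AddChar.map_zero_eq_one]; norm_num

theorem Xdiff : ∀ s : Fin 4, X 1 (S s * e2 + e1) - X 0 (S s * e2 + e1) = -3 := by
  intro s
  rw [X_eq 1 _ ![1,2,2,1] (by revert s; decide)]
  have hd : ∀ s : Fin 4, (∀ t, M 0 ⬝ᵥ (S t * (S s * e2 + e1)) = (![2,1,0,0] : Fin 4 → ZMod 3) t) ∨
      (∀ t, M 0 ⬝ᵥ (S t * (S s * e2 + e1)) = (![0,0,1,2] : Fin 4 → ZMod 3) t) := by decide
  rcases hd s with h | h
  · rw [X_eq 0 _ _ h]
    show ((ZMod.stdAddChar : AddChar (ZMod 3) ℂ) 1 + (ZMod.stdAddChar : AddChar (ZMod 3) ℂ) 2 + (ZMod.stdAddChar : AddChar (ZMod 3) ℂ) 2 + (ZMod.stdAddChar : AddChar (ZMod 3) ℂ) 1) -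
      ((ZMod.stdAddChar : AddChar (ZMod 3) ℂ) 2 + (ZMod.stdAddChar : AddChar (ZMod 3) ℂ) 1 + (ZMod.stdAddChar : AddChar (ZMod 3) ℂ) 0 + (ZMod.stdAddChar : AddChar (ZMod 3) ℂ) 0) = -3
    rw [AddChar.map_zero_eq_one]
    linear_combination psi_sum
  · rw [X_eq 0 _ _ h]
    show ((ZMod.stdAddChar : AddChar (ZMod 3) ℂ) 1 + (ZMod.stdAddChar : AddChar (ZMod 3) ℂ) 2 + (ZMod.stdAddChar : AddChar (ZMod 3) ℂ) 2 + (ZMod.stdAddChar : AddChar (ZMod 3) ℂ) 1) -
      ((ZMod.stdAddChar : AddChar (ZMod 3) ℂ) 0 + (ZMod.stdAddChar : AddChar (ZMod 3) ℂ) 0 + (ZMod.stdAddChar : AddChar (ZMod 3) ℂ) 1 + (ZMod.stdAddChar : AddChar (ZMod 3) ℂ) 2) = -3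
    rw [AddChar.map_zero_eq_one]
    linear_combination psi_sum

theorem tri333 {G : Type*} [Group G] (q y : G) (hq : q * q * q = 1) (hy : y * y * y = 1)
    (h : q * y * q * y * q * y = 1) :
    (q * y⁻¹) * (y⁻¹ * q) = (y⁻¹ * q) * (q * y⁻¹) ∧ q * (q * y⁻¹) * q⁻¹ = ((q * y⁻¹) * (y⁻¹ * q))⁻¹ := by
  have hyi : y⁻¹ = y * y := by rw [inv_eq_iff_mul_eq_one, ← mul_assoc]; exact hy
  have hqi : q⁻¹ = q * q := by rw [inv_eq_iff_mul_eq_one, ← mul_assoc]; exact hq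
  have hyy : y⁻¹ * y⁻¹ = y := by rw [← mul_inv_rev, inv_eq_iff_mul_eq_one]; exact hy
  have h1 : (q * y⁻¹) * (y⁻¹ * q) = q * y * q := by
    calc (q * y⁻¹) * (y⁻¹ * q) = q * (y⁻¹ * y⁻¹) * q := by group
      _ = _ := by rw [hyy]
  have h2 : (y⁻¹ * q) * (q * y⁻¹) = (y * q * y)⁻¹ := by
    calc (y⁻¹ * q) * (q * y⁻¹) = y⁻¹ * (q * q) * y⁻¹ := by group
      _ = y⁻¹ * q⁻¹ * y⁻¹ := by rw [hqi]
      _ = _ := by group
  constructor
  · rw [h1, h2, eq_inv_iff_mul_eq_one]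
    rw [← h]; group
  · rw [h1]
    calc q * (q * y⁻¹) * q⁻¹ = (q * q) * y⁻¹ * q⁻¹ := by group
      _ = q⁻¹ * y⁻¹ * q⁻¹ := by rw [hqi]
      _ = _ := by group

namespace Cfg

variable {G : Type u} [Group G] {H : Subgroup G} {φ : A → G} {W : Fin 4 → G} (C : Cfg H φ W)
include C

/-- the (3,3,3) argument -/
theorem f3 [Finite G] {x : G} (hz : (x * φ e2 * x⁻¹ * φ e1) ^ 3 = 1) : x ∈ H := by
  have hcube : ∀ a : A, φ a * φ a * φ a = 1 := by
    intro a
    have h3 : a + a + a = 0 := by revert a; decide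
    rw [← C.add, ← C.add, h3, C.zero]
  have he1 : e1 ≠ 0 := by decide
  have he2 : e2 ≠ 0 := by decide
  set y := x * φ e2 * x⁻¹ with hy
  set q := φ e1 with hq
  have hqq : q * q * q = 1 := hcube _
  have hyy : y * y * y = 1 := by
    have : y * y * y = x * (φ e2 * φ e2 * φ e2) * x⁻¹ := by rw [hy]; group
    rw [this, hcube]; group
  have hyq : y * q * y * q * y * q = 1 := by
    rw [pow_succ, pow_two] at hz
    rw [← hz]; group
  have hqy : q * y * q * y * q * y = 1 := by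
    have : q * y * q * y * q * y = y⁻¹ * (y * q * y * q * y * q) * y := by group
    rw [this, hyq]; group
  obtain ⟨hab, hqa⟩ := tri333 q y hqq hyy hqy
  set a := q * y⁻¹ with ha
  set b := y⁻¹ * q with hb
  have hcab : Commute a b := hab
  have hqb : q * b * q⁻¹ = a := by rw [ha, hb]; group
  have hya : y = a⁻¹ * q := by rw [ha]; group
  have hfinal : y ∈ H → x ∈ H := by
    intro hyH
    obtain ⟨c, hc⟩ := C.cube y hyH (by rw [pow_succ, pow_two]; exact hyy)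
    apply C.ti x e2 c he2
    rw [← hc, hy]; group
  by_cases h3 : 3 ∣ orderOf a
  · obtain ⟨n, hn⟩ := h3
    have hn0 : 0 < n := by
      rcases Nat.eq_zero_or_pos n with h | h
      · rw [h, mul_zero] at hn
        exact absurd hn (orderOf_pos a).ne'
      · exact h
    -- the element of order three
    have ha1 : a ^ n ≠ 1 := by
      intro h
      have h1 := Nat.le_of_dvd hn0 (orderOf_dvd_of_pow_eq_one h)
      omega
    have ha3 : (a ^ n) ^ 3 = 1 := by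
      rw [← pow_mul, mul_comm, ← hn, pow_orderOf_eq_one]
    have hb3 : (b ^ n) ^ 3 = 1 := by
      have h1 : a ^ n = q * b ^ n * q⁻¹ := by rw [← conj_pow, hqb]
      rw [h1, conj_pow] at ha3
      have h2 : (b ^ n) ^ 3 = q⁻¹ * (q * (b ^ n) ^ 3 * q⁻¹) * q := by group
      rw [h2, ha3]; group
    have hcn : Commute (a ^ n) (b ^ n) := hcab.pow_pow n n
    have hqan : q * a ^ n * q⁻¹ = (a ^ n * b ^ n)⁻¹ := by
      rw [← conj_pow, hqa, inv_pow, hcab.mul_pow]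
    have hqbn : q * b ^ n * q⁻¹ = a ^ n := by rw [← conj_pow, hqb]
    set a' := a ^ n with ha'
    set b' := b ^ n with hb'
    have haa : a' * a' * a' = 1 := by rw [← ha3, pow_succ, pow_two]
    -- a' lies in the subgroup of order 27
    have hmem : ∀ f : G, f ^ 3 = 1 → f ≠ 1 → ∀ g : G, (∃ c : A, c ≠ 0 ∧ f = φ c) → g * f = f * g → g ∈ H := by
      rintro f - - g ⟨c, hc, rfl⟩ h
      exact C.ti g c c hc h
    have haH : ∃ c : A, c ≠ 0 ∧ a' = φ c := by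
      have hkey : ∃ f : G, (∃ c : A, c ≠ 0 ∧ f = φ c) ∧ a' * f = f * a' := by
        by_cases hf : a' * b'⁻¹ = 1
        · refine ⟨q, ⟨e1, he1, rfl⟩, ?_⟩
          have hab' : a' = b' := mul_inv_eq_one.mp hf
          rw [← hab'] at hqbn
          calc a' * q = (q * a' * q⁻¹) * q := by rw [hqbn]
            _ = q * a' := by group
        · have hfix : q * (a' * b'⁻¹) * q⁻¹ = a' * b'⁻¹ := by
            calc q * (a' * b'⁻¹) * q⁻¹ = (q * a' * q⁻¹) * (q * b' * q⁻¹)⁻¹ := by group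
              _ = (a' * b')⁻¹ * a'⁻¹ := by rw [hqan, hqbn]
              _ = b'⁻¹ * (a' * a')⁻¹ := by group
              _ = b'⁻¹ * a' := by
                congr 1
                rw [inv_eq_iff_mul_eq_one]; exact haa
              _ = a' * b'⁻¹ := (hcn.inv_right).eq.symm
          have hf3 : (a' * b'⁻¹) ^ 3 = 1 := by
            rw [(hcn.inv_right).mul_pow, ha3, inv_pow, hb3, inv_one, mul_one]
          have hfH : a' * b'⁻¹ ∈ H := by
            apply C.ti _ e1 e1 he1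
            calc a' * b'⁻¹ * φ e1 = (q * (a' * b'⁻¹) * q⁻¹) * q := by rw [hfix]
              _ = q * (a' * b'⁻¹) := by group
          obtain ⟨c, hc⟩ := C.cube _ hfH hf3
          refine ⟨a' * b'⁻¹, ⟨c, ?_, hc⟩, ?_⟩
          · rintro rfl
            exact hf (hc.trans C.zero)
          · calc a' * (a' * b'⁻¹) = a' * (b'⁻¹ * a') := by rw [(hcn.inv_right).eq]
              _ = _ := by group
      obtain ⟨f, ⟨c, hc, rfl⟩, hcomm⟩ := hkey
      obtain ⟨c', hc'⟩ := C.cube _ (C.ti a' c c hc hcomm) ha3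
      refine ⟨c', ?_, hc'⟩
      rintro rfl
      exact ha1 (hc'.trans C.zero)
    obtain ⟨c, hc, hac⟩ := haH
    apply hfinal
    apply C.ti y c c hc
    rw [← hac]
    have hqa' : q * a' = a' * q := by rw [hac]; exact C.comm _ _
    have haa' : a⁻¹ * a' = a' * a⁻¹ := by
      rw [ha']
      exact ((Commute.refl a).inv_left.pow_right n).eq
    rw [hya]
    calc a⁻¹ * q * a' = a⁻¹ * (q * a') := by group
      _ = a⁻¹ * a' * q := by rw [hqa']; group
      _ = a' * (a⁻¹ * q) := by rw [haa']; group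
  · exfalso
    obtain ⟨k, hk⟩ : ∃ k : ℤ, a ^ (3 * k) = a := by
      have h1 : orderOf a % 3 = 1 ∨ orderOf a % 3 = 2 := by omega
      rcases h1 with h1 | h1
      · refine ⟨-(orderOf a / 3 : ℕ), ?_⟩
        have h2 : (3 * (-(orderOf a / 3 : ℕ)) : ℤ) = 1 - (orderOf a : ℤ) := by
          have : orderOf a = 3 * (orderOf a / 3) + 1 := by omega
          omega
        rw [h2, zpow_sub, zpow_one, zpow_natCast, pow_orderOf_eq_one, inv_one, mul_one]
      · refine ⟨(orderOf a / 3 : ℕ) + 1, ?_⟩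
        have h2 : (3 * ((orderOf a / 3 : ℕ) + 1) : ℤ) = 1 + (orderOf a : ℤ) := by
          have : orderOf a = 3 * (orderOf a / 3) + 2 := by omega
          omega
        rw [h2, zpow_add, zpow_one, zpow_natCast, pow_orderOf_eq_one, mul_one]
    have hu : (a ^ (-k) * b ^ k) * q * (a ^ (-k) * b ^ k)⁻¹ = y := by
      have h1 : q * (a ^ (-k) * b ^ k)⁻¹ * q⁻¹ = (a ^ (2 * k) * b ^ k)⁻¹ := by
        calc q * (a ^ (-k) * b ^ k)⁻¹ * q⁻¹ = ((q * a * q⁻¹) ^ (-k) * (q * b * q⁻¹) ^ k)⁻¹ := by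
              rw [conj_zpow, conj_zpow]; group
          _ = (((a * b)⁻¹) ^ (-k) * a ^ k)⁻¹ := by rw [hqa, hqb]
          _ = ((a * b) ^ k * a ^ k)⁻¹ := by rw [inv_zpow', neg_neg]
          _ = (a ^ k * b ^ k * a ^ k)⁻¹ := by rw [hcab.mul_zpow]
          _ = (a ^ k * (b ^ k * a ^ k))⁻¹ := by rw [mul_assoc]
          _ = (a ^ k * (a ^ k * b ^ k))⁻¹ := by rw [(hcab.zpow_zpow k k).eq]
          _ = _ := by rw [← mul_assoc, ← zpow_add, two_mul]
      calc (a ^ (-k) * b ^ k) * q * (a ^ (-k) * b ^ k)⁻¹ = (a ^ (-k) * b ^ k) * (q * (a ^ (-k) * b ^ k)⁻¹ * q⁻¹) * q := by group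
        _ = (a ^ (-k) * b ^ k) * (a ^ (2 * k) * b ^ k)⁻¹ * q := by rw [h1]
        _ = a ^ (-k) * (a ^ (2 * k))⁻¹ * q := by rw [mul_inv_rev]; group
        _ = (a ^ (3 * k))⁻¹ * q := by
          rw [← zpow_neg, ← zpow_neg, ← zpow_add]
          congr 2
          ring
        _ = y := by rw [hk, hya]
    have hx : (x⁻¹ * (a ^ (-k) * b ^ k)) * φ e1 = φ e2 * (x⁻¹ * (a ^ (-k) * b ^ k)) := by
      have h1 : (a ^ (-k) * b ^ k) * q = y * (a ^ (-k) * b ^ k) := by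
        rw [← hu]; group
      calc (x⁻¹ * (a ^ (-k) * b ^ k)) * φ e1 = x⁻¹ * ((a ^ (-k) * b ^ k) * q) := by rw [mul_assoc]
        _ = x⁻¹ * (y * (a ^ (-k) * b ^ k)) := by rw [h1]
        _ = _ := by rw [hy]; group
    obtain ⟨c, i, hci⟩ := C.surj _ (C.ti _ e1 e2 he1 hx)
    rw [hci] at hx
    have h5 : φ c * W i * φ e1 = φ (c + S i * e1) * W i := by
      rw [mul_assoc, C.cj, ← mul_assoc, ← C.add]
    have h6 : φ e2 * (φ c * W i) = φ (e2 + c) * W i := by rw [← mul_assoc, ← C.add]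
    rw [h5, h6] at hx
    have h7 := C.inj (mul_right_cancel hx)
    have h8 : S i * e1 = e2 := by
      rw [add_comm e2 c] at h7
      exact add_left_cancel h7
    have h9 : ∀ i : Fin 4, S i * e1 ≠ e2 := by decide
    exact h9 i h8

end Cfg

end CfsgLib.Ti27
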