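import Cfsg.Agent.LibTi27c

set_option autoImplicit false
set_option linter.all false
set_option maxHeartbeats 1000000

/-! # TI subgroups of type 3^3 : 2^2 (helper20): the final count -/

namespace CfsgLib.Ti27

open Cfsg CfsgLib.CharBasic CfsgLib.CharIndA CfsgLib.Exc
open scoped ComplexConjugate

universe u

theorem degree_sq_le {G : Type u} [Group G] [Fintype G] {χ : G → ℂ} (hχ : IsIrrCharacter G χ) {d : ℕ}
    (hd : χ 1 = d) : d ^ 2 ≤ Nat.card G := by
  have h1 := CharBasic.inner_self_eq χ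
  rw [irr_inner_self hχ] at h1
  have h2 : (1 : ℝ) = (Nat.card G : ℝ)⁻¹ * ∑ g : G, ‖χ g‖ ^ 2 := by exact_mod_cast h1
  have hpos : (0 : ℝ) < Nat.card G := by exact_mod_cast Nat.card_pos
  have h3 : (Nat.card G : ℝ) = ∑ g : G, ‖χ g‖ ^ 2 := by
    field_simp at h2
    linarith
  have h4 : ‖χ 1‖ ^ 2 ≤ ∑ g : G, ‖χ g‖ ^ 2 :=
    Finset.single_le_sum (f := fun g => ‖χ g‖ ^ 2) (fun g _ => by positivity) (Finset.mem_univ 1)
  rw [hd, Complex.norm_natCast, ← h3] at h4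
  exact_mod_cast h4

namespace Cfg

variable {G : Type u} [Group G] {H : Subgroup G} {φ : A → G} {W : Fin 4 → G} (C : Cfg H φ W)
include C

theorem values [Fintype G] {ε : ℤ} {χ : G → ℂ} (hχ : IsIrrCharacter G χ) {i : Fin 5}
    (hB : ∀ m, (ε : ℂ) * classInner χ (C.beta m) = (((Bn (M i) m : ℤ) - Bn (M i) (M 0) : ℤ) : ℂ)) :
    ∃ κ : ℤ, ∀ a : A, (ε : ℂ) * χ (φ a) = X i a + if a = 0 then 27 * (κ : ℂ) else 0 := by
  classical
  have hf : Fintype C.T := Fintype.ofFinite _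
  let F : A → ℂ := fun a => χ (φ a)
  have hres : (fun t : C.T => χ (t : G)) = C.L F := by
    ext t
    obtain ⟨a, rfl⟩ := C.E.surjective t
    show χ (φ a) = F (C.E.symm (C.E a))
    rw [Equiv.symm_apply_apply]
  let Fh : A → ℂ := fun m => (27 : ℂ)⁻¹ * ∑ b, F b * conj (lam m b)
  have hFh : ∀ m, Fh m = classInner (C.L F) (C.L (lam m)) := fun m => (C.inner_T F (lam m)).symm
  obtain ⟨n, hn⟩ : ∃ n : ℤ, Fh (M 0) = n := by
    rw [hFh, ← hres]
    exact gen_inner_int (gen_restrict (gen_of_irr hχ) C.T) (gen_of_irr (C.irr_lam (M 0)))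
  have hrel : ∀ m, classInner χ (C.beta m) = Fh m - Fh (M 0) := by
    intro m
    unfold beta
    rw [CharIndA.frobenius' _ _ (irr_classFun hχ), hres]
    have h2 : C.L (fun a => lam m a - lam (M 0) a) = C.L (lam m) - C.L (lam (M 0)) := rfl
    rw [h2, CharBasic.inner_sub_right, ← hFh, ← hFh]
  refine ⟨ε * n - Bn (M i) (M 0), fun a => ?_⟩
  have hε : ∀ m, (ε : ℂ) * Fh m = Bn (M i) m + ((ε * n - Bn (M i) (M 0) : ℤ) : ℂ) := by
    intro m
    have h1 := hB m
    rw [hrel, hn] at h1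
    push_cast at h1 ⊢
    linear_combination h1
  have h1 := inversion F a
  have h2 : (ε : ℂ) * F a = ∑ m, ((Bn (M i) m : ℂ) * lam m a + ((ε * n - Bn (M i) (M 0) : ℤ) : ℂ) * lam m a) := by
    rw [h1, Finset.mul_sum]
    refine Finset.sum_congr rfl fun m _ => ?_
    have h3 := hε m
    show (ε : ℂ) * (Fh m * lam m a) = _
    rw [← mul_assoc, h3]; ring
  show (ε : ℂ) * F a = _
  rw [h2, Finset.sum_add_distrib, sum_Bn, ← Finset.mul_sum, sum_lam']
  unfold X
  split_ifs <;> ring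

theorem beta_phi [Fintype G] (m : A) {a : A} (ha : a ≠ 0) : C.beta m (φ a) =
    ∑ s : Fin 4, lam m (S s * a) - ∑ s : Fin 4, lam (M 0) (S s * a) := by
  unfold beta
  rw [C.ind_phi _ ha, Finset.sum_sub_distrib]

theorem card_H [Finite G] : Nat.card H = 108 := by
  have e : A × Fin 4 ≃ H := Equiv.ofBijective (fun q => ⟨φ q.1 * W q.2, C.mem q.1 q.2⟩) ⟨by
    intro q q' h
    obtain ⟨h1, h2⟩ := C.uniq _ _ _ _ (congrArg Subtype.val h)
    exact Prod.ext h1 h2, by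
    rintro ⟨h, hh⟩
    obtain ⟨a, i, rfl⟩ := C.surj h hh
    exact ⟨(a, i), rfl⟩⟩
  rw [← Nat.card_congr e, Nat.card_eq_fintype_card]
  simp [A]

theorem lhs [Fintype G] : ∑ x : G, C.beta (M 1) (x * φ e2 * x⁻¹ * φ e1) = -324 := by
  classical
  rw [C.sum_H]
  · have h1 : ∀ (b : A) (i : Fin 4), C.beta (M 1) (φ b * W i * φ e2 * (φ b * W i)⁻¹ * φ e1) = -3 := by
      intro b i
      have h2 : φ b * W i * φ e2 * (φ b * W i)⁻¹ * φ e1 = φ (S i * e2 + e1) := by
        calc φ b * W i * φ e2 * (φ b * W i)⁻¹ * φ e1 = φ b * (W i * φ e2) * (φ b * W i)⁻¹ * φ e1 := by group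
          _ = φ b * (φ (S i * e2) * W i) * (φ b * W i)⁻¹ * φ e1 := by rw [C.cj]
          _ = (φ b * φ (S i * e2)) * (φ b)⁻¹ * φ e1 := by group
          _ = φ (S i * e2) * φ e1 := by rw [C.comm b]; group
          _ = _ := by rw [C.add]
      have h3' : ∀ i : Fin 4, S i * e2 + e1 ≠ 0 := by decide
      have h3 := h3' i
      rw [h2, C.beta_phi _ h3]
      exact Xdiff i
    simp only [h1, Finset.sum_const, Finset.card_univ]
    have h2 : Fintype.card A = 27 := by simp [A]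
    rw [h2]
    simp
    norm_num
  · intro x hx
    unfold beta
    apply ind_eq_zero_of_not_conj
    rintro g ⟨c, hc⟩
    apply hx
    apply C.f3
    have h3' : ∀ c : A, c + c + c = 0 := by decide
    have h3 := h3' c
    have h4 : (g⁻¹ * (x * φ e2 * x⁻¹ * φ e1) * g) ^ 3 = 1 := by
      rw [← hc, pow_succ, pow_two, ← C.add, ← C.add, h3, C.zero]
    have h5 : (x * φ e2 * x⁻¹ * φ e1) ^ 3 = g * (g⁻¹ * (x * φ e2 * x⁻¹ * φ e1) * g) ^ 3 * g⁻¹ := by
      rw [← conj_pow]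
      congr 1
      group
    rw [h5, h4]; group

theorem top [Finite G] : H = ⊤ := by
  classical
  have : Fintype G := Fintype.ofFinite G
  obtain ⟨ε, hε, μ, hμ, hτ, hB⟩ := C.main1
  have hεε : ε * ε = 1 := by rcases hε with h | h <;> rw [h] <;> norm_num
  have hεc : (ε : ℂ) * ε = 1 := by exact_mod_cast hεε
  have hε0 : (ε : ℂ) ≠ 0 := by intro h; rw [h, mul_zero] at hεc; exact zero_ne_one hεc
  obtain ⟨κ0, h0⟩ := C.values (hμ 0) (fun m => hB m 0)
  obtain ⟨κ1, h1⟩ := C.values (hμ 1) (fun m => hB m 1)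
  obtain ⟨d, hd, hd0⟩ := irr_one_nat (hμ 0)
  have hd1 : μ 1 1 = d := by
    have h2 := congrFun (hτ 1) 1
    rw [C.beta_one, Pi.smul_apply, Pi.sub_apply, smul_eq_mul] at h2
    rw [← hd0]
    exact sub_eq_zero.mp ((mul_eq_zero.mp h2.symm).resolve_left hε0)
  have he1 : e1 ≠ 0 := by decide
  have he2 : e2 ≠ 0 := by decide
  have v01 := h0 e1
  have v02 := h0 e2
  have v11 := h1 e1
  have v12 := h1 e2
  have v00 := h0 0
  rw [if_neg he1, add_zero, X0e1] at v01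
  rw [if_neg he2, add_zero, X0e2] at v02
  rw [if_neg he1, add_zero, X1e1] at v11
  rw [if_neg he2, add_zero, X1e2] at v12
  rw [if_pos rfl, X0zero, C.zero, hd0] at v00
  have hsum := C.lhs
  have h2 : ∀ x : G, C.beta (M 1) (x * φ e2 * x⁻¹ * φ e1) =
      (ε : ℂ) * (μ 1 (x * φ e2 * x⁻¹ * φ e1) - μ 0 (x * φ e2 * x⁻¹ * φ e1)) := by
    intro x; rw [hτ 1]; rfl
  rw [Finset.sum_congr rfl fun x _ => h2 x, ← Finset.mul_sum, Finset.sum_sub_distrib,
    CfsgLib.BlockOrth.sum_conj_mul (hμ 1), CfsgLib.BlockOrth.sum_conj_mul (hμ 0), hd0, hd1] at hsum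
  have hdc : (d : ℂ) ≠ 0 := by exact_mod_cast hd.ne'
  have h3 : μ 1 (φ e2) * μ 1 (φ e1) = -8 := by
    calc μ 1 (φ e2) * μ 1 (φ e1) = ((ε : ℂ) * ε) * (μ 1 (φ e2) * μ 1 (φ e1)) := by rw [hεc, one_mul]
      _ = ((ε : ℂ) * μ 1 (φ e2)) * ((ε : ℂ) * μ 1 (φ e1)) := by ring
      _ = -8 := by rw [v11, v12]; norm_num
  have h4 : μ 0 (φ e2) * μ 0 (φ e1) = 4 := by
    calc μ 0 (φ e2) * μ 0 (φ e1) = ((ε : ℂ) * ε) * (μ 0 (φ e2) * μ 0 (φ e1)) := by rw [hεc, one_mul]
      _ = ((ε : ℂ) * μ 0 (φ e2)) * ((ε : ℂ) * μ 0 (φ e1)) := by ring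
      _ = 4 := by rw [v01, v02]; norm_num
  have h5 : (ε : ℂ) * Nat.card G = 27 * d := by
    rw [mul_assoc (Nat.card G : ℂ), mul_assoc (Nat.card G : ℂ), h3, h4] at hsum
    field_simp at hsum
    linear_combination (-1 / 12 : ℂ) * hsum
  have h6 : ε * (Nat.card G : ℤ) = 27 * d := by exact_mod_cast h5
  have hGpos : (0 : ℤ) < Nat.card G := by exact_mod_cast Nat.card_pos
  have hε1 : ε = 1 := by
    rcases hε with h | h
    · exact h
    · exfalso
      rw [h] at h6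
      have : (0 : ℤ) < d := by exact_mod_cast hd
      linarith
  rw [hε1] at v00 h6
  have h7 : (d : ℤ) = 4 + 27 * κ0 := by
    have : ((d : ℤ) : ℂ) = ((4 + 27 * κ0 : ℤ) : ℂ) := by
      push_cast
      push_cast at v00
      linear_combination v00
    exact_mod_cast this
  have h8 := degree_sq_le (hμ 0) hd0
  have h9 : Nat.card G = 27 * d := by
    have : (Nat.card G : ℤ) = 27 * d := by linarith
    exact_mod_cast this
  have h10 : d ≤ 27 := by
    rw [h9] at h8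
    by_contra h
    push Not at h
    nlinarith
  have h11 : d = 4 := by omega
  apply Subgroup.eq_top_of_card_eq
  rw [C.card_H, h9, h11]

end Cfg

end CfsgLib.Ti27
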