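import Cfsg.Agent.LibTi27d

set_option autoImplicit false
set_option linter.all false
set_option maxHeartbeats 1000000

/-! # TI subgroups of type 3^3 : 2^2 (helper20): the configuration -/

namespace CfsgLib.Ti27

universe u

theorem pow_mod3 {G : Type*} [Group G] {c : G} (h : c ^ 3 = 1) (n : ℕ) : c ^ (n % 3) = c ^ n := by
  conv_rhs => rw [← Nat.div_add_mod n 3]
  rw [pow_add, pow_mul, h, one_pow, one_mul]

theorem pow_add3 {G : Type*} [Group G] {c : G} (h : c ^ 3 = 1) (x y : ZMod 3) :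
    c ^ (x + y).val = c ^ x.val * c ^ y.val := by
  rw [ZMod.val_add, pow_mod3 h, pow_add]

theorem inv3 {G : Type*} [Group G] {u c : G} (h : u * c = c ^ 2 * u) (h3 : c ^ 3 = 1) (x : ZMod 3) :
    u * c ^ x.val = c ^ (-1 * x).val * u := by
  have h0 : ∀ x : ZMod 3, x = 0 ∨ x = 1 ∨ x = 2 := by decide
  rcases h0 x with rfl | rfl | rfl
  · have e : ((-1 * 0 : ZMod 3)).val = 0 := by decide
    rw [e, ZMod.val_zero, pow_zero, mul_one, one_mul]
  · have e : ((-1 * 1 : ZMod 3)).val = 2 := by decide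
    have e' : ((1 : ZMod 3)).val = 1 := by decide
    rw [e, e', pow_one, h]
  · have e : ((-1 * 2 : ZMod 3)).val = 1 := by decide
    have e' : ((2 : ZMod 3)).val = 2 := by decide
    rw [e, e', pow_one]
    calc u * c ^ 2 = (u * c) * c := by rw [pow_two]; group
      _ = c ^ 2 * u * c := by rw [h]
      _ = c ^ 2 * (u * c) := mul_assoc _ _ _
      _ = c ^ 2 * (c ^ 2 * u) := by rw [h]
      _ = c ^ 3 * c * u := by rw [← mul_assoc, ← pow_add, ← pow_succ]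
      _ = c * u := by rw [h3, one_mul]

theorem fix3 {G : Type*} [Group G] {u c : G} (h : u * c = c * u) (n : ℕ) : u * c ^ n = c ^ n * u :=
  ((show Commute u c from h).pow_right n).eq

def phi {G : Type*} [Group G] (c1 c2 c3 : G) (a : A) : G := c1 ^ (a 0).val * c2 ^ (a 1).val * c3 ^ (a 2).val
def WW {G : Type*} [Group G] (u v : G) : Fin 4 → G := ![1, u, v, u * v]

structure Rel {G : Type*} [Group G] (c1 c2 c3 u v : G) : Prop where
  o1 : c1 ^ 3 = 1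
  o2 : c2 ^ 3 = 1
  o3 : c3 ^ 3 = 1
  c12 : c1 * c2 = c2 * c1
  c13 : c1 * c3 = c3 * c1
  c23 : c2 * c3 = c3 * c2
  uu : u * u = 1
  vv : v * v = 1
  uv : u * v = v * u
  u1 : u * c1 = c1 ^ 2 * u
  u2 : u * c2 = c2 ^ 2 * u
  u3 : u * c3 = c3 * u
  v1 : v * c1 = c1 ^ 2 * v
  v2 : v * c2 = c2 * v
  v3 : v * c3 = c3 ^ 2 * v

namespace Rel

variable {G : Type*} [Group G] {c1 c2 c3 u v : G} (R : Rel c1 c2 c3 u v)
include R

theorem add (a b : A) : phi c1 c2 c3 (a + b) = phi c1 c2 c3 a * phi c1 c2 c3 b := by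
  unfold phi
  rw [Pi.add_apply, Pi.add_apply, Pi.add_apply, pow_add3 R.o1, pow_add3 R.o2, pow_add3 R.o3]
  have h12 : ∀ m n : ℕ, c2 ^ m * c1 ^ n = c1 ^ n * c2 ^ m := fun m n =>
    ((show Commute c2 c1 from R.c12.symm).pow_pow m n).eq
  have h13 : ∀ m n : ℕ, c3 ^ m * c1 ^ n = c1 ^ n * c3 ^ m := fun m n =>
    ((show Commute c3 c1 from R.c13.symm).pow_pow m n).eq
  have h23 : ∀ m n : ℕ, c3 ^ m * c2 ^ n = c2 ^ n * c3 ^ m := fun m n =>
    ((show Commute c3 c2 from R.c23.symm).pow_pow m n).eq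
  calc c1 ^ (a 0).val * c1 ^ (b 0).val * (c2 ^ (a 1).val * c2 ^ (b 1).val) * (c3 ^ (a 2).val * c3 ^ (b 2).val)
      = c1 ^ (a 0).val * (c1 ^ (b 0).val * c2 ^ (a 1).val) * (c2 ^ (b 1).val * c3 ^ (a 2).val) * c3 ^ (b 2).val := by
        simp only [mul_assoc]
    _ = c1 ^ (a 0).val * (c2 ^ (a 1).val * c1 ^ (b 0).val) * (c3 ^ (a 2).val * c2 ^ (b 1).val) * c3 ^ (b 2).val := by
        rw [h12, h23]
    _ = c1 ^ (a 0).val * c2 ^ (a 1).val * (c1 ^ (b 0).val * c3 ^ (a 2).val) * c2 ^ (b 1).val * c3 ^ (b 2).val := by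
        simp only [mul_assoc]
    _ = c1 ^ (a 0).val * c2 ^ (a 1).val * (c3 ^ (a 2).val * c1 ^ (b 0).val) * c2 ^ (b 1).val * c3 ^ (b 2).val := by
        rw [h13]
    _ = _ := by simp only [mul_assoc]

theorem cju (a : A) : u * phi c1 c2 c3 a = phi c1 c2 c3 (S 1 * a) * u := by
  unfold phi
  have e0 : (S 1 * a) 0 = -1 * a 0 := by revert a; decide
  have e1 : (S 1 * a) 1 = -1 * a 1 := by revert a; decide
  have e2 : (S 1 * a) 2 = a 2 := by revert a; decide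
  rw [e0, e1, e2]
  calc u * (c1 ^ (a 0).val * c2 ^ (a 1).val * c3 ^ (a 2).val) = (u * c1 ^ (a 0).val) * c2 ^ (a 1).val * c3 ^ (a 2).val := by
        simp only [mul_assoc]
    _ = c1 ^ (-1 * a 0).val * (u * c2 ^ (a 1).val) * c3 ^ (a 2).val := by rw [inv3 R.u1 R.o1]; simp only [mul_assoc]
    _ = c1 ^ (-1 * a 0).val * c2 ^ (-1 * a 1).val * (u * c3 ^ (a 2).val) := by rw [inv3 R.u2 R.o2]; simp only [mul_assoc]
    _ = _ := by rw [fix3 R.u3]; simp only [mul_assoc]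

theorem cjv (a : A) : v * phi c1 c2 c3 a = phi c1 c2 c3 (S 2 * a) * v := by
  unfold phi
  have e0 : (S 2 * a) 0 = -1 * a 0 := by revert a; decide
  have e1 : (S 2 * a) 1 = a 1 := by revert a; decide
  have e2 : (S 2 * a) 2 = -1 * a 2 := by revert a; decide
  rw [e0, e1, e2]
  calc v * (c1 ^ (a 0).val * c2 ^ (a 1).val * c3 ^ (a 2).val) = (v * c1 ^ (a 0).val) * c2 ^ (a 1).val * c3 ^ (a 2).val := by
        simp only [mul_assoc]
    _ = c1 ^ (-1 * a 0).val * (v * c2 ^ (a 1).val) * c3 ^ (a 2).val := by rw [inv3 R.v1 R.o1]; simp only [mul_assoc]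
    _ = c1 ^ (-1 * a 0).val * c2 ^ (a 1).val * (v * c3 ^ (a 2).val) := by rw [fix3 R.v2]; simp only [mul_assoc]
    _ = _ := by rw [inv3 R.v3 R.o3]; simp only [mul_assoc]

theorem cj (i : Fin 4) (a : A) : WW u v i * phi c1 c2 c3 a = phi c1 c2 c3 (S i * a) * WW u v i := by
  have h0 : ∀ i : Fin 4, i = 0 ∨ i = 1 ∨ i = 2 ∨ i = 3 := by decide
  rcases h0 i with rfl | rfl | rfl | rfl
  · show 1 * _ = _ * 1
    rw [S_zero, one_mul, mul_one]
  · exact R.cju a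
  · exact R.cjv a
  · show u * v * phi c1 c2 c3 a = phi c1 c2 c3 (S 3 * a) * (u * v)
    have e : S 3 * a = S 1 * (S 2 * a) := by revert a; decide
    rw [e, mul_assoc, R.cjv, ← mul_assoc, R.cju, mul_assoc]

theorem WWmul (i j : Fin 4) : ∃ k, WW u v i * WW u v j = WW u v k := by
  have h0 : ∀ i : Fin 4, i = 0 ∨ i = 1 ∨ i = 2 ∨ i = 3 := by decide
  have w0 : WW u v 0 = 1 := rfl
  have w1 : WW u v 1 = u := rfl
  have w2 : WW u v 2 = v := rfl
  have w3 : WW u v 3 = u * v := rfl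
  rcases h0 i with rfl | rfl | rfl | rfl
  · exact ⟨j, by rw [w0, one_mul]⟩
  · rcases h0 j with rfl | rfl | rfl | rfl
    · exact ⟨1, by rw [w0, mul_one]⟩
    · exact ⟨0, by rw [w1, w0, R.uu]⟩
    · exact ⟨3, by rw [w1, w2, w3]⟩
    · exact ⟨2, by rw [w1, w3, w2, ← mul_assoc, R.uu, one_mul]⟩
  · rcases h0 j with rfl | rfl | rfl | rfl
    · exact ⟨2, by rw [w0, mul_one]⟩
    · exact ⟨3, by rw [w1, w2, w3, R.uv]⟩
    · exact ⟨0, by rw [w2, w0, R.vv]⟩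
    · exact ⟨1, by rw [w2, w3, w1, R.uv, ← mul_assoc, R.vv, one_mul]⟩
  · rcases h0 j with rfl | rfl | rfl | rfl
    · exact ⟨3, by rw [w0, mul_one]⟩
    · exact ⟨2, by rw [w1, w2, w3, R.uv, mul_assoc, R.uu, mul_one]⟩
    · exact ⟨1, by rw [w2, w3, w1, mul_assoc, R.vv, mul_one]⟩
    · exact ⟨0, by rw [w3, w0]; nth_rewrite 1 [R.uv]; rw [mul_assoc, ← mul_assoc u u v, R.uu, one_mul, R.vv]⟩

theorem WWsq (i : Fin 4) : WW u v i * WW u v i = 1 := by
  have h0 : ∀ i : Fin 4, i = 0 ∨ i = 1 ∨ i = 2 ∨ i = 3 := by decide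
  rcases h0 i with rfl | rfl | rfl | rfl
  · show (1 : G) * 1 = 1; rw [mul_one]
  · exact R.uu
  · exact R.vv
  · show u * v * (u * v) = 1
    nth_rewrite 1 [R.uv]; rw [mul_assoc, ← mul_assoc u u v, R.uu, one_mul, R.vv]

theorem zero : phi c1 c2 c3 0 = 1 := by
  have h := R.add 0 0
  rw [add_zero] at h
  exact left_eq_mul.mp h

theorem neg (a : A) : phi c1 c2 c3 (-a) = (phi c1 c2 c3 a)⁻¹ := by
  rw [eq_inv_iff_mul_eq_one, ← R.add, neg_add_cancel, R.zero]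

theorem surj {h : G} (hh : h ∈ Subgroup.closure ({c1, c2, c3, u, v} : Set G)) :
    ∃ a i, h = phi c1 c2 c3 a * WW u v i := by
  induction hh using Subgroup.closure_induction with
  | mem x hx =>
    rcases hx with rfl | rfl | rfl | rfl | rfl
    · refine ⟨![1,0,0], 0, ?_⟩
      show x = x ^ 1 * c2 ^ 0 * c3 ^ 0 * 1
      simp
    · refine ⟨![0,1,0], 0, ?_⟩
      show x = c1 ^ 0 * x ^ 1 * c3 ^ 0 * 1
      simp
    · refine ⟨![0,0,1], 0, ?_⟩
      show x = c1 ^ 0 * c2 ^ 0 * x ^ 1 * 1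
      simp
    · refine ⟨0, 1, ?_⟩
      rw [R.zero, one_mul]; rfl
    · refine ⟨0, 2, ?_⟩
      rw [R.zero, one_mul]; rfl
  | one => exact ⟨0, 0, by rw [R.zero, one_mul]; rfl⟩
  | mul x y _ _ hx hy =>
    obtain ⟨a, i, rfl⟩ := hx
    obtain ⟨b, j, rfl⟩ := hy
    obtain ⟨k, hk⟩ := R.WWmul i j
    refine ⟨a + S i * b, k, ?_⟩
    calc phi c1 c2 c3 a * WW u v i * (phi c1 c2 c3 b * WW u v j)
        = phi c1 c2 c3 a * (WW u v i * phi c1 c2 c3 b) * WW u v j := by simp only [mul_assoc]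
      _ = phi c1 c2 c3 a * phi c1 c2 c3 (S i * b) * (WW u v i * WW u v j) := by rw [R.cj]; simp only [mul_assoc]
      _ = _ := by rw [hk, R.add]
  | inv x _ hx =>
    obtain ⟨a, i, rfl⟩ := hx
    refine ⟨S i * (-a), i, ?_⟩
    have h1 : (WW u v i)⁻¹ = WW u v i := inv_eq_iff_mul_eq_one.mpr (R.WWsq i)
    rw [mul_inv_rev, h1, ← R.neg, R.cj]

end Rel

end CfsgLib.Ti27
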