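import Cfsg.Agent.LibTi27e

set_option autoImplicit false
set_option linter.all false
set_option maxHeartbeats 1000000

/-! # TI subgroups of type 3^3 : 2^2 (helper20): from the hypotheses to the configuration -/

namespace CfsgLib.Ti27

universe u

abbrev P1 : Equiv.Perm (Fin 9) := Equiv.swap (0 : Fin 9) 1 * Equiv.swap 1 2
abbrev P2 : Equiv.Perm (Fin 9) := Equiv.swap (3 : Fin 9) 4 * Equiv.swap 4 5
abbrev P3 : Equiv.Perm (Fin 9) := Equiv.swap (6 : Fin 9) 7 * Equiv.swap 7 8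
abbrev PU : Equiv.Perm (Fin 9) := Equiv.swap (0 : Fin 9) 1 * Equiv.swap 3 4
abbrev PV : Equiv.Perm (Fin 9) := Equiv.swap (0 : Fin 9) 1 * Equiv.swap 6 7

theorem relP : Rel P1 P2 P3 PU PV := by
  refine ⟨?_, ?_, ?_, ?_, ?_, ?_, ?_, ?_, ?_, ?_, ?_, ?_, ?_, ?_, ?_⟩ <;> decide

theorem nondeg : ∀ (a : A) (k : Fin 4), phi P1 P2 P3 a = WW PU PV k → a = 0 ∧ k = 0 := by
  decide +kernel

theorem WWinj : ∀ i j : Fin 4, WW PU PV i = WW PU PV j → i = j := by
  decide

/-- transport of relations along an injective homomorphism -/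
theorem Rel.map {K G : Type*} [Group K] [Group G] {c1 c2 c3 u v : K} (R : Rel c1 c2 c3 u v) (θ : K →* G) :
    Rel (θ c1) (θ c2) (θ c3) (θ u) (θ v) := by
  refine ⟨?_, ?_, ?_, ?_, ?_, ?_, ?_, ?_, ?_, ?_, ?_, ?_, ?_, ?_, ?_⟩
  · rw [← map_pow, R.o1, map_one]
  · rw [← map_pow, R.o2, map_one]
  · rw [← map_pow, R.o3, map_one]
  · rw [← map_mul, R.c12, map_mul]
  · rw [← map_mul, R.c13, map_mul]
  · rw [← map_mul, R.c23, map_mul]
  · rw [← map_mul, R.uu, map_one]
  · rw [← map_mul, R.vv, map_one]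
  · rw [← map_mul, R.uv, map_mul]
  · rw [← map_mul, R.u1, map_mul, map_pow]
  · rw [← map_mul, R.u2, map_mul, map_pow]
  · rw [← map_mul, R.u3, map_mul]
  · rw [← map_mul, R.v1, map_mul, map_pow]
  · rw [← map_mul, R.v2, map_mul]
  · rw [← map_mul, R.v3, map_mul, map_pow]

theorem map_phi {K G : Type*} [Group K] [Group G] (c1 c2 c3 : K) (θ : K →* G) (a : A) :
    θ (phi c1 c2 c3 a) = phi (θ c1) (θ c2) (θ c3) a := by
  unfold phi
  rw [map_mul, map_mul, map_pow, map_pow, map_pow]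

theorem map_WW {K G : Type*} [Group K] [Group G] (u v : K) (θ : K →* G) (i : Fin 4) :
    θ (WW u v i) = WW (θ u) (θ v) i := by
  have h0 : ∀ i : Fin 4, i = 0 ∨ i = 1 ∨ i = 2 ∨ i = 3 := by decide
  rcases h0 i with rfl | rfl | rfl | rfl
  · exact map_one θ
  · rfl
  · rfl
  · exact map_mul θ u v

theorem cfg_of {G : Type u} [Group G] [Finite G] (H T : Subgroup G) {c1 c2 c3 u v : G} (R : Rel c1 c2 c3 u v)
    (hnd : ∀ (a : A) (k : Fin 4), phi c1 c2 c3 a = WW u v k → a = 0 ∧ k = 0)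
    (hWW : ∀ i j : Fin 4, WW u v i = WW u v j → i = j)
    (hH : H = Subgroup.closure ({c1, c2, c3, u, v} : Set G))
    (hTH : T ≤ H) (hT : Nat.card T = 27) (hN : Subgroup.normalizer (T : Set G) = H)
    (hC : ∀ t ∈ T, t ≠ 1 → Subgroup.centralizer ({t} : Set G) ≤ H) :
    Cfg H (phi c1 c2 c3) (WW u v) := by
  have hsurj : ∀ h ∈ H, ∃ a i, h = phi c1 c2 c3 a * WW u v i := by
    intro h hh
    rw [hH] at hh
    exact R.surj hh
  have hinj : Function.Injective (phi c1 c2 c3) := by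
    intro a b hab
    have h1 : phi c1 c2 c3 (a - b) = WW u v 0 := by
      rw [sub_eq_add_neg, R.add, R.neg, hab, mul_inv_cancel]; rfl
    exact sub_eq_zero.mp (hnd _ _ h1).1
  have hmemc : c1 ∈ H ∧ c2 ∈ H ∧ c3 ∈ H ∧ u ∈ H ∧ v ∈ H := by
    rw [hH]
    refine ⟨?_, ?_, ?_, ?_, ?_⟩ <;> apply Subgroup.subset_closure <;> simp
  obtain ⟨m1, m2, m3, mu, mv⟩ := hmemc
  have hphiH : ∀ a, phi c1 c2 c3 a ∈ H := fun a =>
    H.mul_mem (H.mul_mem (H.pow_mem m1 _) (H.pow_mem m2 _)) (H.pow_mem m3 _)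
  have hWH : ∀ i, WW u v i ∈ H := by
    have h0 : ∀ i : Fin 4, i = 0 ∨ i = 1 ∨ i = 2 ∨ i = 3 := by decide
    intro i
    rcases h0 i with rfl | rfl | rfl | rfl
    · exact H.one_mem
    · exact mu
    · exact mv
    · exact H.mul_mem mu mv
  have hsq : ∀ h ∈ H, ∃ c, h ^ 2 = phi c1 c2 c3 c := by
    intro h hh
    obtain ⟨a, i, rfl⟩ := hsurj h hh
    refine ⟨a + S i * a, ?_⟩
    rw [pow_two]
    calc phi c1 c2 c3 a * WW u v i * (phi c1 c2 c3 a * WW u v i)
        = phi c1 c2 c3 a * (WW u v i * phi c1 c2 c3 a) * WW u v i := by simp only [mul_assoc]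
      _ = phi c1 c2 c3 a * phi c1 c2 c3 (S i * a) * (WW u v i * WW u v i) := by rw [R.cj]; simp only [mul_assoc]
      _ = _ := by rw [R.WWsq, mul_one, R.add]
  have hpow : ∀ (c : A) (n : ℕ), ∃ c', phi c1 c2 c3 c ^ n = phi c1 c2 c3 c' := by
    intro c n
    induction n with
    | zero => exact ⟨0, by rw [pow_zero, R.zero]⟩
    | succ n ih =>
      obtain ⟨c', hc'⟩ := ih
      exact ⟨c' + c, by rw [pow_succ, hc', R.add]⟩
  have hcube : ∀ f ∈ H, f ^ 3 = 1 → ∃ a, f = phi c1 c2 c3 a := by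
    intro f hf hf3
    obtain ⟨c, hc⟩ := hsq f hf
    obtain ⟨c', hc'⟩ := hpow c 2
    refine ⟨c', ?_⟩
    rw [← hc', ← hc, ← pow_mul]
    show f = f ^ 4
    rw [pow_succ, hf3, one_mul]
  have hcub : ∀ a, phi c1 c2 c3 a ^ 3 = 1 := by
    intro a
    have h3 : a + a + a = 0 := by revert a; decide
    rw [pow_succ, pow_two, ← R.add, ← R.add, h3, R.zero]
  -- the range
  let Rg : Subgroup G :=
    { carrier := Set.range (phi c1 c2 c3)
      mul_mem' := by
        rintro _ _ ⟨a, rfl⟩ ⟨b, rfl⟩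
        exact ⟨a + b, R.add a b⟩
      one_mem' := ⟨0, R.zero⟩
      inv_mem' := by
        rintro _ ⟨a, rfl⟩
        exact ⟨-a, R.neg a⟩ }
  have hRg : Nat.card Rg = 27 := by
    have e : A ≃ Rg := Equiv.ofBijective (fun a => ⟨phi c1 c2 c3 a, a, rfl⟩)
      ⟨fun a b h => hinj (congrArg Subtype.val h), by rintro ⟨_, a, rfl⟩; exact ⟨a, rfl⟩⟩
    rw [← Nat.card_congr e, Nat.card_eq_fintype_card]
    simp [A]
  have hTR : T = Rg := by
    apply Subgroup.eq_of_le_of_card_ge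
    · intro t ht
      obtain ⟨c, hc⟩ := hsq t (hTH ht)
      obtain ⟨c', hc'⟩ := hpow c 14
      refine ⟨c', ?_⟩
      have h27 : t ^ 27 = 1 := by
        have : (⟨t, ht⟩ : T) ^ Nat.card T = 1 := pow_card_eq_one'
        rw [hT] at this
        exact congrArg Subtype.val this
      rw [← hc', ← hc, ← pow_mul]
      show t ^ 28 = t
      rw [pow_succ, h27, one_mul]
    · rw [hRg, hT]
  have hphiT : ∀ a, phi c1 c2 c3 a ∈ T := fun a => by rw [hTR]; exact ⟨a, rfl⟩
  refine ⟨R.add, hinj, R.cj, hsurj, ?_, fun a i => H.mul_mem (hphiH a) (hWH i), rfl, ?_, hcube⟩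
  · intro a b i j h
    obtain ⟨k, hk⟩ := R.WWmul j i
    have h1 : phi c1 c2 c3 (-b + a) = WW u v k := by
      rw [← hk, R.add, R.neg]
      calc (phi c1 c2 c3 b)⁻¹ * phi c1 c2 c3 a = (phi c1 c2 c3 b)⁻¹ * (phi c1 c2 c3 a * WW u v i) * (WW u v i)⁻¹ := by group
        _ = (phi c1 c2 c3 b)⁻¹ * (phi c1 c2 c3 b * WW u v j) * (WW u v i)⁻¹ := by rw [h]
        _ = WW u v j * (WW u v i)⁻¹ := by group
        _ = _ := by rw [inv_eq_iff_mul_eq_one.mpr (R.WWsq i)]
    obtain ⟨h2, h3⟩ := hnd _ _ h1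
    have hab : a = b := by rw [neg_add_eq_zero] at h2; exact h2.symm
    refine ⟨hab, ?_⟩
    rw [hab] at h
    exact hWW i j (mul_left_cancel h)
  · intro g a b ha hg
    have ht1 : phi c1 c2 c3 a ≠ 1 := by
      intro h1
      exact ha (hinj (h1.trans R.zero.symm))
    have hgb : phi c1 c2 c3 b = g * phi c1 c2 c3 a * g⁻¹ := by rw [hg]; group
    have hb1 : phi c1 c2 c3 b ≠ 1 := by
      intro h1
      apply ht1
      rw [hgb] at h1
      have : phi c1 c2 c3 a = g⁻¹ * (g * phi c1 c2 c3 a * g⁻¹) * g := by group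
      rw [this, h1]; group
    have hcb := hC _ (hphiT b) hb1
    have hconj : ∀ t ∈ T, g * t * g⁻¹ ∈ T := by
      intro t ht
      rw [hTR] at ht
      obtain ⟨c, rfl⟩ := ht
      have h1 : g * phi c1 c2 c3 c * g⁻¹ ∈ Subgroup.centralizer ({phi c1 c2 c3 b} : Set G) := by
        rw [Subgroup.mem_centralizer_singleton_iff, hgb]
        have h2 : phi c1 c2 c3 a * phi c1 c2 c3 c = phi c1 c2 c3 c * phi c1 c2 c3 a := by
          rw [← R.add, add_comm, R.add]
        calc g * phi c1 c2 c3 c * g⁻¹ * (g * phi c1 c2 c3 a * g⁻¹) = g * (phi c1 c2 c3 c * phi c1 c2 c3 a) * g⁻¹ := by group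
          _ = g * (phi c1 c2 c3 a * phi c1 c2 c3 c) * g⁻¹ := by rw [h2]
          _ = _ := by group
      obtain ⟨d, hd⟩ := hcube _ (hcb h1) (by rw [conj_pow, hcub]; group)
      rw [hd]
      exact hphiT d
    rw [← hN, Subgroup.mem_normalizer_iff]
    have hmap : T.map (MulAut.conj g).toMonoidHom = T := by
      apply Subgroup.eq_of_le_of_card_ge
      · rintro _ ⟨t, ht, rfl⟩
        exact hconj t ht
      · rw [Nat.card_congr (Subgroup.equivMapOfInjective T (MulAut.conj g).toMonoidHom (MulAut.conj g).injective).toEquiv.symm]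
    intro t
    constructor
    · exact hconj t
    · intro h
      rw [← hmap] at h
      obtain ⟨t', ht', h'⟩ := h
      have : g * t' * g⁻¹ = g * t * g⁻¹ := h'
      have h2 : t' = t := by
        have h3 := mul_right_cancel this
        exact mul_left_cancel h3
      rw [← h2]; exact ht'

theorem final {G : Type u} [Group G] [Finite G] (H : Subgroup G)
    (hH : Nonempty (↥H ≃* ↥(Subgroup.closure ({P1, P2, P3, PU, PV} : Set (Equiv.Perm (Fin 9))))))
    (T : Subgroup G) (hTH : T ≤ H) (hT : Nat.card T = 27) (hN : Subgroup.normalizer (T : Set G) = H)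
    (hC : ∀ t ∈ T, t ≠ 1 → Subgroup.centralizer ({t} : Set G) ≤ H) : H = ⊤ := by
  obtain ⟨e⟩ := hH
  set K := Subgroup.closure ({P1, P2, P3, PU, PV} : Set (Equiv.Perm (Fin 9))) with hK
  have hm : ∀ x ∈ ({P1, P2, P3, PU, PV} : Set (Equiv.Perm (Fin 9))), x ∈ K := fun x hx => Subgroup.subset_closure hx
  let k1 : K := ⟨P1, hm _ (by simp)⟩
  let k2 : K := ⟨P2, hm _ (by simp)⟩
  let k3 : K := ⟨P3, hm _ (by simp)⟩
  let ku : K := ⟨PU, hm _ (by simp)⟩
  let kv : K := ⟨PV, hm _ (by simp)⟩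
  let θ : K →* G := H.subtype.comp e.symm.toMonoidHom
  have hθ : Function.Injective θ := Subtype.val_injective.comp e.symm.injective
  have hrelK : Rel k1 k2 k3 ku kv := by
    have R := relP
    refine ⟨?_, ?_, ?_, ?_, ?_, ?_, ?_, ?_, ?_, ?_, ?_, ?_, ?_, ?_, ?_⟩ <;> apply Subtype.ext
    · exact R.o1
    · exact R.o2
    · exact R.o3
    · exact R.c12
    · exact R.c13
    · exact R.c23
    · exact R.uu
    · exact R.vv
    · exact R.uv
    · exact R.u1
    · exact R.u2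
    · exact R.u3
    · exact R.v1
    · exact R.v2
    · exact R.v3
  have hR := hrelK.map θ
  have hphiK : ∀ a, ((phi k1 k2 k3 a : K) : Equiv.Perm (Fin 9)) = phi P1 P2 P3 a := fun a => map_phi k1 k2 k3 K.subtype a
  have hWK : ∀ i, ((WW ku kv i : K) : Equiv.Perm (Fin 9)) = WW PU PV i := fun i => map_WW ku kv K.subtype i
  have hnd : ∀ (a : A) (k : Fin 4), phi (θ k1) (θ k2) (θ k3) a = WW (θ ku) (θ kv) k → a = 0 ∧ k = 0 := by
    intro a k h
    rw [← map_phi, ← map_WW] at h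
    have h1 := congrArg Subtype.val (hθ h)
    rw [hphiK, hWK] at h1
    exact nondeg a k h1
  have hWW : ∀ i j : Fin 4, WW (θ ku) (θ kv) i = WW (θ ku) (θ kv) j → i = j := by
    intro i j h
    rw [← map_WW, ← map_WW] at h
    have h1 := congrArg Subtype.val (hθ h)
    rw [hWK, hWK] at h1
    exact WWinj i j h1
  have hclo : H = Subgroup.closure ({θ k1, θ k2, θ k3, θ ku, θ kv} : Set G) := by
    have hrange : θ.range = H := by
      ext g
      constructor
      · rintro ⟨x, rfl⟩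
        exact (e.symm x).2
      · intro hg
        exact ⟨e ⟨g, hg⟩, by show ((e.symm (e ⟨g, hg⟩) : H) : G) = g; rw [MulEquiv.symm_apply_apply]⟩
    have hKtop : Subgroup.closure ({k1, k2, k3, ku, kv} : Set K) = ⊤ := by
      rw [eq_top_iff]
      rintro ⟨x, hx⟩ -
      have h1 : (Subgroup.closure ({k1, k2, k3, ku, kv} : Set K)).map K.subtype = K := by
        rw [MonoidHom.map_closure]
        have h3 : (K.subtype '' {k1, k2, k3, ku, kv} : Set (Equiv.Perm (Fin 9))) = {P1, P2, P3, PU, PV} := by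
          simp only [Set.image_insert_eq, Set.image_singleton]
          rfl
        rw [h3]
      have h2 : x ∈ (Subgroup.closure ({k1, k2, k3, ku, kv} : Set K)).map K.subtype := by rw [h1]; exact hx
      obtain ⟨y, hy, hyx⟩ := h2
      have : y = ⟨x, hx⟩ := Subtype.ext hyx
      rw [← this]; exact hy
    rw [← hrange, MonoidHom.range_eq_map, ← hKtop, MonoidHom.map_closure]
    congr 1
    simp only [Set.image_insert_eq, Set.image_singleton]
  exact (cfg_of H T hR hnd hWW hclo hTH hT hN hC).top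

end CfsgLib.Ti27
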