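import Mathlib
import Cfsg.Agent.EqBase
import Cfsg.Agent.LibBlkC28
import Cfsg.Agent.LibTrio28
import Cfsg.Agent.LibAgl28

set_option autoImplicit false

/-! The trio stabiliser (helper28). -/

namespace CfsgLib.Blk28

open Cfsg CfsgLib.Golay CfsgLib.M24 CfsgLib.Restr28 CfsgLib.Syn28 CfsgLib.Six28 CfsgLib.OrbG28 CfsgLib.Qrt28 CfsgLib.Trio28 MulAction
open scoped Pointwise

section
variable {T : Finset (Finset GolayPt)} (hT : T ∈ trios)

include hT in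
theorem tr_swap {o o' : Finset GolayPt} (ho : o ∈ T) (ho' : o' ∈ T) (hne : o ≠ o') : ∃ g : ↥M24, g • T = T ∧ g • o = o' ∧ g • o' = o ∧
    ∀ v ∈ T, v ≠ o → v ≠ o' → g • v = v := by
  have hd := hT.2.2 o ho o' ho' hne
  obtain ⟨g, h1, h2⟩ := disjoint_pair_trans (hT.2.1 o ho) (hT.2.1 o' ho') hd (hT.2.1 o' ho') (hT.2.1 o ho) hd.symm
  have e1 := eq_trioOf hT ho ho' hne
  have e2 := eq_trioOf hT ho' ho hne.symm
  refine ⟨g, ?_, h1, h2, ?_⟩
  · rw [e1, smul_trioOf, h1, h2, ← e2, e1]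
  · intro v hv hvo hvo'
    rw [e1, trioOf, Finset.mem_insert, Finset.mem_insert, Finset.mem_singleton] at hv
    rcases hv with rfl | rfl | rfl
    · exact absurd rfl hvo
    · exact absurd rfl hvo'
    · rw [CfsgLib.Qrt28.smul_compl', Finset.smul_finset_union, h1, h2, Finset.union_comm]

include hT in
theorem tr_surj : Function.Surjective (rhoF T) := by
  classical
  rw [← MonoidHom.range_eq_top, eq_top_iff, ← Equiv.Perm.closure_isSwap, Subgroup.closure_le]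
  rintro σ ⟨t, u, htu, rfl⟩
  obtain ⟨g, h1, h2, h3, h4⟩ := tr_swap hT t.2 u.2 (fun h => htu (Subtype.ext h))
  refine ⟨⟨g, h1⟩, ?_⟩
  apply Equiv.ext
  intro v
  apply Subtype.ext
  rw [rhoF_apply]
  by_cases hvt : v = t
  · rw [hvt, Equiv.swap_apply_left]; exact h2
  · by_cases hvu : v = u
    · rw [hvu, Equiv.swap_apply_right]; exact h3
    · rw [Equiv.swap_apply_of_ne_of_ne hvt hvu]
      exact h4 v v.2 (fun h => hvt (Subtype.ext h)) (fun h => hvu (Subtype.ext h))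

include hT in
theorem card_kr_tr : Nat.card ↥(kr T) = 10752 := by
  have h := card_kr_mul (tr_surj hT)
  rw [hT.1, card_stab_trio hT] at h
  have h6 : Nat.factorial 3 = 6 := by decide
  rw [h6] at h
  omega

/-- the trios through an octad -/
abbrev TrO (o : Finset GolayPt) := {T : Finset (Finset GolayPt) // T ∈ trios ∧ o ∈ T}

theorem fx_smul_self {o : Finset GolayPt} {g : ↥M24} (hg : g ∈ fx o) : g • o = o := fx_smul subset_rfl hg

instance (o : Finset GolayPt) : MulAction ↥(fx o) (TrO o) where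
  smul g T := ⟨(g : ↥M24) • T.1, trios_inv _ _ T.2.1, by
    have h1 : (g : ↥M24) • o ∈ (g : ↥M24) • T.1 := Finset.smul_mem_smul_finset T.2.2
    rwa [fx_smul_self g.2] at h1⟩
  one_smul T := Subtype.ext (one_smul ↥M24 T.1)
  mul_smul g h T := Subtype.ext (mul_smul (g : ↥M24) (h : ↥M24) T.1)

theorem card_fx {o : Finset GolayPt} (ho : o ∈ octads) : Nat.card ↥(fx o) = 16 := by
  rw [← (octad_pointwise ho).1]
  refine Nat.card_congr ⟨fun g => ⟨((g : ↥M24) : Equiv.Perm GolayPt), Subgroup.mem_inf.2 ⟨(g : ↥M24).2, mem_fixing.2 g.2⟩⟩,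
    fun g => ⟨⟨g, (Subgroup.mem_inf.1 g.2).1⟩, mem_fixing.1 (Subgroup.mem_inf.1 g.2).2⟩, fun g => rfl, fun g => rfl⟩

/-- the pointwise stabiliser of an octad fixes every trio through it -/
theorem fx_trio {o : Finset GolayPt} (ho : o ∈ octads) {T : Finset (Finset GolayPt)} (hT : T ∈ trios) (hoT : o ∈ T) {g : ↥M24}
    (hg : g ∈ fx o) : g • T = T := by
  haveI : Fact (Nat.Prime 2) := ⟨Nat.prime_two⟩
  have hP : IsPGroup 2 ↥(fx o) := IsPGroup.of_card (n := 4) (by rw [card_fx ho]; norm_num)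
  have hc : Nat.card (TrO o) = 15 := by
    rw [← trios_through ho, ← Nat.card_coe_set_eq]; rfl
  obtain ⟨T0, hT0⟩ := hP.nonempty_fixed_point_of_prime_not_dvd_card (TrO o) (by rw [hc]; norm_num)
  obtain ⟨a, ha, hne⟩ := trio_two T0.2.1 T0.2.2
  obtain ⟨b, hb, hne'⟩ := trio_two hT hoT
  obtain ⟨k, hk1, hk2⟩ := disjoint_pair_trans ho (T0.2.1.2.1 a ha) (T0.2.1.2.2 o T0.2.2 a ha hne) ho (hT.2.1 b hb)
    (hT.2.2 o hoT b hb hne')
  have h1 : k • T0.1 = T := by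
    rw [eq_trioOf T0.2.1 T0.2.2 ha hne, smul_trioOf, hk1, hk2, ← eq_trioOf hT hoT hb hne']
  have h2 : k⁻¹ * g * k ∈ fx o := by
    have h3 := fx_conj (g := k⁻¹) hg
    have h4 : k⁻¹ • o = o := inv_smul_eq_iff.2 hk1.symm
    rw [inv_inv, h4] at h3
    exact h3
  have h3 : (k⁻¹ * g * k) • T0.1 = T0.1 := congrArg Subtype.val (hT0 ⟨_, h2⟩)
  rw [← h1]
  have h4 : g • k • T0.1 = k • ((k⁻¹ * g * k) • T0.1) := by
    rw [← mul_smul, ← mul_smul]; congr 1; group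
  rw [h4, h3]

include hT in
theorem tr_blk {o : Finset GolayPt} (ho : o ∈ T) : ∀ t ∈ T, t ⊆ o ∨ Disjoint t o := by
  intro t ht
  by_cases h : t = o
  · left; rw [h]
  · right; exact hT.2.2 t ht o ho h

include hT in
theorem tr_move {o b : Finset GolayPt} (ho : o ∈ T) (hb : b ∈ T) (hne : b ≠ o) {x y : GolayPt} (hx : x ∈ b) (hy : y ∈ b) :
    ∃ g ∈ EE T o, (g : Equiv.Perm GolayPt) x = y :=
  EE_move (hT.2.1 o ho) (fun g hg => fx_trio (hT.2.1 o ho) hT ho hg) hT.2.2 (tr_blk hT ho) hb (hT.2.2 b hb o ho hne) hx hy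

include hT in
theorem tr_EE_card {o : Finset GolayPt} (ho : o ∈ T) : Nat.card ↥(EE T o) = 8 := by
  obtain ⟨b, hb, hne⟩ := trio_two hT ho
  rw [EE_card (b := b) (hT.2.1 o ho) (fun g hg => fx_trio (hT.2.1 o ho) hT ho hg) hT.2.2 (tr_blk hT ho) hb
    (hT.2.2 b hb o ho hne.symm) (octad_ne_empty (hT.2.1 b hb))]
  exact (hT.2.1 b hb).2

theorem tr_nrm {o : Finset GolayPt} (ho : o ∈ T) : ∀ k ∈ kr T, ∀ a ∈ EE T o, k * a * k⁻¹ ∈ EE T o := by
  intro k hk a ha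
  have h1 := EE_conj (kr_le T hk) ha
  rwa [hk o ho] at h1

include hT in
theorem tr_inf {o o' : Finset GolayPt} (ho : o ∈ T) (ho' : o' ∈ T) (hne : o ≠ o') : EE T o ⊓ EE T o' = ⊥ := by
  obtain ⟨x, hx⟩ := octad_ne_empty (hT.2.1 o' ho')
  exact EE_inf (hT.2.1 o ho) hx (fun h => Finset.disjoint_left.1 (hT.2.2 o ho o' ho' hne) h hx)

include hT in
theorem tr_comm {o o' : Finset GolayPt} (ho : o ∈ T) (ho' : o' ∈ T) (hne : o ≠ o') :
    ∀ a ∈ EE T o, ∀ b ∈ EE T o', a * b = b * a :=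
  comm_of_norm (tr_nrm ho) (tr_nrm ho') (EE_le _ _) (EE_le _ _) (tr_inf hT ho ho' hne)

include hT in
/-- the centraliser of one of the groups -/
theorem tr_cent {o o' : Finset GolayPt} (ho : o ∈ T) (ho' : o' ∈ T) (hne : o ≠ o') {g : ↥M24} (hg : g ∈ kr T)
    (hc : ∀ h ∈ EE T o, g * h = h * g) : g ∈ EE T o ⊔ EE T o' := by
  obtain ⟨x, hx⟩ := octad_ne_empty (hT.2.1 o' ho')
  have hgx : (g : Equiv.Perm GolayPt) x ∈ o' := by
    have h1 : g • x ∈ g • o' := Finset.smul_mem_smul_finset hx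
    rwa [hg o' ho'] at h1
  obtain ⟨f, hf, hfx⟩ := tr_move hT ho ho' hne.symm hx hgx
  have h2 : f⁻¹ * g ∈ EE T o' := by
    refine ⟨?_, (kr T).mul_mem ((kr T).inv_mem (Subgroup.mem_inf.1 hf).2) hg⟩
    intro y hy
    obtain ⟨h, hh, hhx⟩ := tr_move hT ho ho' hne.symm hx hy
    have h3 : (f⁻¹ * g) * h = h * (f⁻¹ * g) := by
      have h4 : f⁻¹ * h = h * f⁻¹ := fx_comm (hT.2.1 o ho) ((fx o).inv_mem (Subgroup.mem_inf.1 hf).1) (Subgroup.mem_inf.1 hh).1
      rw [mul_assoc, hc h hh, ← mul_assoc, h4, mul_assoc]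
    have h5 : ((f⁻¹ * g : ↥M24) : Equiv.Perm GolayPt) x = x := by
      show (f : Equiv.Perm GolayPt)⁻¹ ((g : Equiv.Perm GolayPt) x) = x
      rw [← hfx]; simp
    have h6 : ((f⁻¹ * g * h : ↥M24) : Equiv.Perm GolayPt) x = ((h * (f⁻¹ * g) : ↥M24) : Equiv.Perm GolayPt) x := by rw [h3]
    have h7 : ((f⁻¹ * g : ↥M24) : Equiv.Perm GolayPt) ((h : Equiv.Perm GolayPt) x) =
      (h : Equiv.Perm GolayPt) (((f⁻¹ * g : ↥M24) : Equiv.Perm GolayPt) x) := h6
    rw [h5, hhx] at h7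
    exact h7
  have h3 : g = f * (f⁻¹ * g) := by group
  rw [h3]
  exact mul_mem (Subgroup.mem_sup_left hf) (Subgroup.mem_sup_right h2)

include hT in
theorem tr_le {o o' : Finset GolayPt} (ho : o ∈ T) (ho' : o' ∈ T) (hne : o ≠ o') {v : Finset GolayPt} (hv : v ∈ T) :
    EE T v ≤ EE T o ⊔ EE T o' := by
  by_cases h : v = o
  · rw [h]; exact le_sup_left
  · intro g hg
    exact tr_cent hT ho ho' hne hg.2 (tr_comm hT hv ho h g hg)

end

end CfsgLib.Blk28
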