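import Cfsg.Agent.LibTwG2

set_option autoImplicit false
set_option linter.unusedSectionVars false
set_option linter.unusedVariables false

/-! Relations of a class of type B2 in characteristic two -/

namespace CfsgLib.Chev

/-- root elements of a class of type B2 in characteristic two -/
structure B2R {G K : Type*} [Group G] [Field K] (A B C D : K → G) : Prop where
  A_add : ∀ s t, A (s + t) = A s * A t
  B_add : ∀ s t, B (s + t) = B s * B t
  C_add : ∀ s t, C (s + t) = C s * C t
  D_add : ∀ s t, D (s + t) = D s * D t
  AC : ∀ s t, Commute (A s) (C t)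
  AD : ∀ s t, Commute (A s) (D t)
  BC : ∀ s t, Commute (B s) (C t)
  BD : ∀ s t, Commute (B s) (D t)
  CD : ∀ s t, Commute (C s) (D t)
  rel : ∀ t T, B t * A T * (C (t * T) * D (t * T ^ 2)) = A T * B t

namespace B2R

variable {G K : Type*} [Group G] [Field K]

/-- the general element -/
def W (A B C D : K → G) (a b c d : K) : G := A a * B b * (C c * D d)

variable {A B C D : K → G} (h : B2R A B C D)
include h

theorem C_zero : C 0 = 1 := by
  have := h.C_add 0 0
  rw [add_zero] at this
  exact left_eq_mul.1 this
theorem D_zero : D 0 = 1 := by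
  have := h.D_add 0 0
  rw [add_zero] at this
  exact left_eq_mul.1 this
theorem A_zero : A 0 = 1 := by
  have := h.A_add 0 0
  rw [add_zero] at this
  exact left_eq_mul.1 this
theorem B_zero : B 0 = 1 := by
  have := h.B_add 0 0
  rw [add_zero] at this
  exact left_eq_mul.1 this

theorem CD_mul (c d c' d' : K) : C c * D d * (C c' * D d') = C (c + c') * D (d + d') := by
  rw [h.C_add, h.D_add]
  have := (h.CD c' d).eq
  calc C c * D d * (C c' * D d') = C c * (D d * C c') * D d' := by group
    _ = C c * C c' * (D d * D d') := by rw [← this]; group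

theorem CD_comm_A (a c d : K) : Commute (A a) (C c * D d) := (h.AC a c).mul_right (h.AD a d)
theorem CD_comm_B (a c d : K) : Commute (B a) (C c * D d) := (h.BC a c).mul_right (h.BD a d)

theorem swap (hK : (2 : K) = 0) (t T : K) : B t * A T = A T * B t * (C (t * T) * D (t * T ^ 2)) := by
  have h1 := h.rel t T
  have e : C (t * T) * D (t * T ^ 2) * (C (t * T) * D (t * T ^ 2)) = 1 := by
    rw [h.CD_mul]
    have : ∀ x : K, x + x = 0 := fun x => by rw [← two_mul, hK, zero_mul]
    rw [this, this, h.C_zero, h.D_zero, one_mul]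
  rw [← h1, mul_assoc, e, mul_one]

theorem W_mul (hK : (2 : K) = 0) (a b c d a' b' c' d' : K) :
    W A B C D a b c d * W A B C D a' b' c' d' = W A B C D (a + a') (b + b') (c + c' + b * a') (d + d' + b * a' ^ 2) := by
  unfold W
  have c1 := (h.CD_comm_A a' c d).eq
  have c2 := (h.CD_comm_B b' c d).eq
  have c3 := (h.CD_comm_B b' (b * a') (b * a' ^ 2)).eq
  calc A a * B b * (C c * D d) * (A a' * B b' * (C c' * D d'))
      = A a * B b * ((C c * D d) * A a') * B b' * (C c' * D d') := by group
    _ = A a * (B b * A a') * ((C c * D d) * B b') * (C c' * D d') := by rw [← c1]; group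
    _ = A a * A a' * B b * ((C (b * a') * D (b * a' ^ 2)) * B b') * (C c * D d) * (C c' * D d') := by rw [← c2, h.swap hK b a']; group
    _ = A a * A a' * (B b * B b') * ((C (b * a') * D (b * a' ^ 2)) * (C c * D d * (C c' * D d'))) := by rw [← c3]; group
    _ = _ := by
      rw [h.CD_mul, h.CD_mul, ← h.A_add, ← h.B_add]
      congr 3 <;> ring

theorem W_one : W A B C D 0 0 0 0 = 1 := by
  unfold W
  rw [h.A_zero, h.B_zero, h.C_zero, h.D_zero]
  simp

end B2R
end CfsgLib.Chev
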