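import Mathlib
import Cfsg.Agent.LibH7Sylow
import Cfsg.Agent.LibTIConj

/-! Odd-order elements acting on cyclic 2-groups and on 2-groups with a cyclic subgroup of index 2
(seat helper15). -/

set_option autoImplicit false

namespace CfsgLib.TwoAct

open CfsgLib.TIConj

universe u
variable {G : Type u} [Group G]

theorem mem_of_pow_mem [Finite G] {H : Subgroup G} {g : G} {d : ℕ} (hd : (orderOf g).Coprime d) (h : g ^ d ∈ H) : g ∈ H := by
  obtain ⟨m, hm⟩ := (Nat.Coprime.exists_mul_mod_eq_one_of_coprime' (orderOf_pos g) hd)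
  have h1 : (g ^ d) ^ m = g := by
    rw [← pow_mul]
    have : g ^ (d * m) = g ^ ((d * m) % orderOf g) := (pow_mod_orderOf g _).symm
    rw [this, hm]
    by_cases h1 : orderOf g = 1
    · rw [orderOf_eq_one_iff.mp h1]; simp
    · have : 1 % orderOf g = 1 := Nat.mod_eq_of_lt (by have := orderOf_pos g; omega)
      rw [this, pow_one]
  rw [← h1]; exact pow_mem h m
where
  Nat.Coprime.exists_mul_mod_eq_one_of_coprime' {n d : ℕ} (hn : 0 < n) (h : n.Coprime d) : ∃ m, (d * m) % n = 1 % n := by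
    rcases Nat.lt_or_ge 1 n with h1 | h1
    · obtain ⟨m, hm⟩ := Nat.exists_mul_mod_eq_one_of_coprime h.symm h1
      exact ⟨m, by rw [hm.2, Nat.mod_eq_of_lt h1]⟩
    · have : n = 1 := by omega
      subst this
      exact ⟨0, by simp⟩

/-- an element of odd order normalising a cyclic 2-group centralises it -/
theorem odd_cent_cyclic [Finite G] {R : Subgroup G} [IsCyclic R] (hR : IsPGroup 2 R) {g : G}
    (hg : g ∈ Subgroup.normalizer (R : Set G)) (ho : (orderOf g).Coprime 2) : g ∈ Subgroup.centralizer (R : Set G) := by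
  have : Fact (Nat.Prime 2) := ⟨Nat.prime_two⟩
  obtain ⟨k, hk⟩ := IsPGroup.iff_card.mp hR
  have h1 := CfsgLib.H7.relIndex_centralizer_dvd_of_cyclic R
  rw [hk] at h1
  have h2 : Nat.totient (2 ^ k) ∣ 2 ^ k := by
    rcases Nat.eq_zero_or_pos k with rfl | hk0
    · simp
    · rw [Nat.totient_prime_pow Nat.prime_two hk0]
      simp only [Nat.add_one_sub_one, mul_one]
      exact pow_dvd_pow 2 (by omega)
  have h3 := h1.trans h2
  obtain ⟨j, _, hj⟩ := (Nat.dvd_prime_pow Nat.prime_two).mp h3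
  have hn : ((Subgroup.centralizer (R : Set G)).subgroupOf (Subgroup.normalizer (R : Set G))).Normal := by
    rw [← Subgroup.normalizerMonoidHom_ker]; infer_instance
  have h4 := Subgroup.pow_index_mem ((Subgroup.centralizer (R : Set G)).subgroupOf (Subgroup.normalizer (R : Set G))) ⟨g, hg⟩
  have h5 : g ^ (2 ^ j) ∈ Subgroup.centralizer (R : Set G) := by
    rw [← hj]; exact h4
  exact mem_of_pow_mem (Nat.Coprime.pow_right j ho) h5

/-- an element of odd order normalising a 2-group `Q` and a cyclic subgroup `R` of index at most 2 centralises `Q` -/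
theorem odd_cent_of_index_two [Finite G] {Q R : Subgroup G} (hQ : IsPGroup 2 Q) (hRQ : R ≤ Q) [IsCyclic R]
    (hi : ∀ x ∈ Q, ∀ y ∈ Q, x ∉ R → y ∉ R → x * y⁻¹ ∈ R) {g : G}
    (hgQ : g ∈ Subgroup.normalizer (Q : Set G)) (hgR : g ∈ Subgroup.normalizer (R : Set G)) (ho : (orderOf g).Coprime 2) :
    g ∈ Subgroup.centralizer (Q : Set G) := by
  have : Fact (Nat.Prime 2) := ⟨Nat.prime_two⟩
  have hc := odd_cent_cyclic (hQ.to_le hRQ) hgR ho
  rw [Subgroup.mem_centralizer_iff] at hc ⊢
  intro s hs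
  by_cases hsR : s ∈ R
  · exact hc s hsR
  · have h1 : g * s * g⁻¹ ∉ R := by
      intro h
      apply hsR
      exact (Subgroup.mem_normalizer_iff.mp hgR s).mpr h
    have h2 := hi _ (conj_mem_of_normalizer hgQ hs) _ hs h1 hsR
    obtain ⟨c, hcd⟩ : ∃ c, c = g * s * g⁻¹ * s⁻¹ := ⟨_, rfl⟩
    rw [← hcd] at h2
    have hgs : g * s = c * s * g := by rw [hcd]; group
    have hpow : ∀ n : ℕ, g ^ n * s = c ^ n * s * g ^ n := by
      intro n
      induction n with
      | zero => simp
      | succ n ih =>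
        have h3 : c * g = g * c := hc c h2
        have h4 : Commute c (g ^ n) := (show Commute c g from h3).pow_right n
        calc g ^ (n + 1) * s = g ^ n * (g * s) := by rw [pow_succ, mul_assoc]
          _ = (g ^ n * c) * s * g := by rw [hgs]; simp [mul_assoc]
          _ = c * (g ^ n * s) * g := by rw [← h4.eq]; simp [mul_assoc]
          _ = c ^ (n + 1) * s * g ^ (n + 1) := by rw [ih, pow_succ', pow_succ g]; simp [mul_assoc]
    have h5 := hpow (orderOf g)
    rw [pow_orderOf_eq_one, one_mul, mul_one] at h5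
    have h6 : c ^ (orderOf g) = 1 := (mul_eq_right.mp h5.symm)
    obtain ⟨j, hj⟩ := (hQ.to_le hRQ) ⟨c, h2⟩
    have hj' : c ^ (2 ^ j) = 1 := congrArg Subtype.val hj
    have h7 : orderOf c = 1 := by
      have a1 := orderOf_dvd_of_pow_eq_one h6
      have a2 := orderOf_dvd_of_pow_eq_one hj'
      have a3 : (orderOf g).Coprime (2 ^ j) := Nat.Coprime.pow_right j ho
      exact Nat.dvd_one.mp (a3 ▸ Nat.dvd_gcd a1 a2)
    rw [orderOf_eq_one_iff] at h7
    rw [hgs, h7, one_mul]

end CfsgLib.TwoAct
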