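import Cfsg.Agent.LibU37a
import Cfsg.Prelude.Def_Classical

set_option autoImplicit false

/-! `PSL₂(7)` inside `PSU₃(3)`, II: the subgroup (seat helper26). -/

namespace CfsgLib.U37

open Matrix

section F

variable {F : Type*} [Field F] (h3 : (3 : F) = 0) (i : F) (hi : i * i = -1)

include h3 in
theorem cube3 (x y z : F) : (x + y + z) ^ 3 = x ^ 3 + y ^ 3 + z ^ 3 := by
  linear_combination ((x + y) * (y + z) * (z + x)) * h3

include h3 in
theorem pres (M : Matrix (Fin 3) (Fin 3) F) (hM : ∀ r c, ∑ k, M k r * (M k c) ^ 3 = if r = c then 1 else 0) (u v : Fin 3 → F) :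
    Cfsg.hermForm 3 F 3 (M *ᵥ u) (M *ᵥ v) = Cfsg.hermForm 3 F 3 u v := by
  unfold Cfsg.hermForm
  simp only [Matrix.mulVec, dotProduct, Fin.sum_univ_three] at *
  have e00 := hM 0 0
  have e01 := hM 0 1
  have e02 := hM 0 2
  have e10 := hM 1 0
  have e11 := hM 1 1
  have e12 := hM 1 2
  have e20 := hM 2 0
  have e21 := hM 2 1
  have e22 := hM 2 2
  simp at e00 e01 e02 e10 e11 e12 e20 e21 e22
  rw [cube3 h3, cube3 h3, cube3 h3]
  linear_combination (u 0 * v 0 ^ 3) * e00 + (u 0 * v 1 ^ 3) * e01 + (u 0 * v 2 ^ 3) * e02 + (u 1 * v 0 ^ 3) * e10 + (u 1 * v 1 ^ 3) * e11 +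
    (u 1 * v 2 ^ 3) * e12 + (u 2 * v 0 ^ 3) * e20 + (u 2 * v 1 ^ 3) * e21 + (u 2 * v 2 ^ 3) * e22

theorem mtA : mt i Ac = !![1, 1, 2 + i; 1, 1, 1 + 2 * i; 2 + 2 * i, 1 + i, 0] := by
  ext r c
  fin_cases r <;> fin_cases c <;> simp [mt, vl, gl, Ac]

theorem mtB : mt i Bc = !![0, 0, 1; 1, 0, 0; 0, 1, 0] := by
  ext r c
  fin_cases r <;> fin_cases c <;> simp [mt, vl, gl, Bc]

include h3 hi in
theorem detA : (mt i Ac).det = 1 := by
  rw [mtA, Matrix.det_fin_three]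
  simp
  linear_combination hi - h3

theorem detB : (mt i Bc).det = 1 := by
  rw [mtB, Matrix.det_fin_three]
  simp

/-- first generator -/
def aS : SpecialLinearGroup (Fin 3) F := ⟨mt i Ac, detA h3 i hi⟩
/-- second generator -/
def bS : SpecialLinearGroup (Fin 3) F := ⟨mt i Bc, detB i⟩

include h3 hi in
theorem aS_mem : aS h3 i hi ∈ Cfsg.SU 3 F 3 := by
  intro u v
  apply pres h3
  intro r c
  change ∑ k, mt i Ac k r * (mt i Ac k c) ^ 3 = _
  rw [mtA, Fin.sum_univ_three]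
  have e3 : i ^ 3 = -i := by linear_combination i * hi
  have c1 : (2 + i) ^ 3 = 2 - i := by linear_combination e3 + (2 + 4 * i + 2 * i ^ 2) * h3
  have c2 : (1 + 2 * i) ^ 3 = 1 - 2 * i := by linear_combination 8 * e3 + (2 * i + 4 * i ^ 2 - 2 * i) * h3
  have c3 : (2 + 2 * i) ^ 3 = 2 - 2 * i := by linear_combination 8 * e3 + (2 + 8 * i + 8 * i ^ 2 - 2 * i) * h3
  have c4 : (1 + i) ^ 3 = 1 - i := by linear_combination e3 + (i + i ^ 2) * h3
  fin_cases r <;> fin_cases c <;> simp [c1, c2, c3, c4]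
  · linear_combination (-4 : F) * hi + 3 * h3
  · linear_combination (-2 : F) * hi + 2 * h3
  · linear_combination (1 - i) * h3
  · linear_combination (-2 : F) * hi + 2 * h3
  · linear_combination (-1 : F) * hi + h3
  · linear_combination (1 - i) * h3
  · linear_combination (1 + i) * h3
  · linear_combination (1 + i) * h3
  · linear_combination (-5 : F) * hi + 3 * h3

theorem bS_mem : bS i ∈ Cfsg.SU 3 F 3 := by
  intro u v
  change Cfsg.hermForm 3 F 3 (mt i Bc *ᵥ u) (mt i Bc *ᵥ v) = Cfsg.hermForm 3 F 3 u v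
  rw [mtB]
  unfold Cfsg.hermForm
  simp only [Matrix.mulVec, dotProduct, Fin.sum_univ_three]
  simp
  ring

/-- first generator -/
def aU : ↥(Cfsg.SU 3 F 3) := ⟨aS h3 i hi, aS_mem h3 i hi⟩
/-- second generator -/
def bU : ↥(Cfsg.SU 3 F 3) := ⟨bS i, bS_mem i⟩

/-- the matrix of an element -/
def mx (x : ↥(Cfsg.SU 3 F 3)) : Matrix (Fin 3) (Fin 3) F := ((x : SpecialLinearGroup (Fin 3) F) : Matrix (Fin 3) (Fin 3) F)

theorem mx_inj {x y : ↥(Cfsg.SU 3 F 3)} (h : mx x = mx y) : x = y := Subtype.ext (Subtype.ext h)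
theorem mx_mul (x y : ↥(Cfsg.SU 3 F 3)) : mx (x * y) = mx x * mx y := rfl
theorem mx_one : mx (1 : ↥(Cfsg.SU 3 F 3)) = 1 := rfl

include h3 hi in
theorem rep_mul {x y : ↥(Cfsg.SU 3 F 3)} {l m : List ℕ} (hx : mx x = mt i l) (hy : mx y = mt i m) : mx (x * y) = mt i (mulL l m) := by
  rw [mx_mul, hx, hy, mt_mul h3 i hi]

theorem mx_a : mx (aU h3 i hi) = mt i Ac := rfl
theorem mx_b : mx (bU (F := F) i) = mt i Bc := rfl

theorem aa : aU h3 i hi * aU h3 i hi = 1 := by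
  apply mx_inj
  rw [rep_mul h3 i hi (mx_a h3 i hi) (mx_a h3 i hi), mx_one, ← mt_one i]
  congr 1

include h3 hi in
theorem bbb : bU i * bU i * bU (F := F) i = 1 := by
  apply mx_inj
  rw [rep_mul h3 i hi (rep_mul h3 i hi (mx_b i) (mx_b i)) (mx_b i), mx_one, ← mt_one i]
  congr 1

theorem b_ne : bU (F := F) i ≠ 1 := by
  intro h
  have := congrArg (fun x => mx x 0 0) h
  simp only [mx_b, mx_one, mtB] at this
  simp at this

theorem ab_ne : aU h3 i hi * bU i ≠ 1 := by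
  intro h
  have h1 := congrArg (fun x => mx x 0 2) h
  rw [rep_mul h3 i hi (mx_a h3 i hi) (mx_b i)] at h1
  have e : mulL Ac Bc = [1, 5, 1, 1, 7, 1, 4, 0, 8] := by decide +kernel
  rw [e, mx_one] at h1
  simp [mt, vl, gl] at h1

theorem ab7 : (aU h3 i hi * bU i) ^ 7 = 1 := by
  have h1 : (aU h3 i hi * bU i) ^ 7 = (aU h3 i hi * bU i) * (aU h3 i hi * bU i) * (aU h3 i hi * bU i) * (aU h3 i hi * bU i) *
      (aU h3 i hi * bU i) * (aU h3 i hi * bU i) * (aU h3 i hi * bU i) := by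
    simp only [pow_succ, pow_zero, one_mul]
  rw [h1]
  have r := rep_mul h3 i hi (mx_a h3 i hi) (mx_b i)
  apply mx_inj
  rw [rep_mul h3 i hi (rep_mul h3 i hi (rep_mul h3 i hi (rep_mul h3 i hi (rep_mul h3 i hi (rep_mul h3 i hi r r) r) r) r) r) r, mx_one, ← mt_one i]
  congr 1

/-- the commutator -/
def cU : ↥(Cfsg.SU 3 F 3) := aU h3 i hi * bU i * aU h3 i hi * (bU i * bU i)

theorem mx_c : mx (cU h3 i hi) = mt i (mulL (mulL (mulL Ac Bc) Ac) (mulL Bc Bc)) :=
  rep_mul h3 i hi (rep_mul h3 i hi (rep_mul h3 i hi (mx_a h3 i hi) (mx_b i)) (mx_a h3 i hi)) (rep_mul h3 i hi (mx_b i) (mx_b i))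

theorem c2_ne : cU h3 i hi * cU h3 i hi ≠ 1 := by
  intro h
  have h1 := congrArg (fun x => mx x 0 0) h
  rw [rep_mul h3 i hi (mx_c h3 i hi) (mx_c h3 i hi)] at h1
  have e : mulL (mulL (mulL (mulL Ac Bc) Ac) (mulL Bc Bc)) (mulL (mulL (mulL Ac Bc) Ac) (mulL Bc Bc)) = [0, 4, 8, 7, 1, 1, 5, 1, 1] := by decide +kernel
  rw [e, mx_one] at h1
  simp [mt, vl, gl] at h1

theorem c4 : (cU h3 i hi * cU h3 i hi) * (cU h3 i hi * cU h3 i hi) = 1 := by
  apply mx_inj
  have r := rep_mul h3 i hi (mx_c h3 i hi) (mx_c h3 i hi)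
  rw [rep_mul h3 i hi r r, mx_one, ← mt_one i]
  congr 1

/-- only the identity commutes with both generators -/
theorem cent (z : ↥(Cfsg.SU 3 F 3)) (ha : z * aU h3 i hi = aU h3 i hi * z) (hb : z * bU i = bU i * z) : z = 1 := by
  have h1 := congrArg mx ha
  have h2 := congrArg mx hb
  rw [mx_mul, mx_mul, mx_a, mtA] at h1
  rw [mx_mul, mx_mul, mx_b, mtB] at h2
  obtain ⟨Z, hZ⟩ : ∃ Z, Z = mx z := ⟨_, rfl⟩
  have hdet : Z.det = 1 := by rw [hZ]; exact (z : SpecialLinearGroup (Fin 3) F).2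
  rw [← hZ] at h1 h2
  have k := fun r c => congrFun (congrFun h2 r) c
  have k' := fun r c => congrFun (congrFun h1 r) c
  simp only [Matrix.mul_apply, Fin.sum_univ_three] at k k'
  have k00 := k 0 0
  have k01 := k 0 1
  have k02 := k 0 2
  have k10 := k 1 0
  have k11 := k 1 1
  have k12 := k 1 2
  have k20 := k 2 0
  have k21 := k 2 1
  have k22 := k 2 2
  have l00 := k' 0 0
  have l01 := k' 0 1
  have l02 := k' 0 2
  have l10 := k' 1 0
  have l11 := k' 1 1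
  simp at k00 k01 k02 k10 k11 k12 k20 k21 k22 l00 l01 l02 l10 l11
  have t0 : Z 0 2 = 0 := by linear_combination -l01 - k10 + (2 + i) * k01
  have e : (1 + i) * Z 0 1 = 0 := by linear_combination -l00 + (1 + 2 * i) * t0 - k12 + (2 + i) * k00
  have s0 : Z 0 1 = 0 := by linear_combination Z 0 1 * h3 - (1 - i) * e - Z 0 1 * hi
  have z12 : Z 1 2 = 0 := by rw [k11, s0]
  have z20 : Z 2 0 = 0 := by rw [← k00, s0]
  have z10 : Z 1 0 = 0 := by rw [k12, t0]
  have z21 : Z 2 1 = 0 := by rw [← k01, t0]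
  have z11 : Z 1 1 = Z 0 0 := k10
  have z22 : Z 2 2 = Z 0 0 := k02.symm
  rw [Matrix.det_fin_three, t0, s0, z12, z20, z10, z21, z11, z22] at hdet
  have e3 : (Z 0 0 - 1) ^ 3 = 0 := by linear_combination hdet + (Z 0 0 - Z 0 0 ^ 2) * h3
  have e1 : Z 0 0 = 1 := by
    have := pow_eq_zero_iff (n := 3) (by norm_num) |>.1 e3
    linear_combination this
  apply mx_inj
  rw [← hZ, mx_one]
  ext r c
  fin_cases r <;> fin_cases c <;> simp [e1, t0, s0, z12, z20, z10, z21, z11, z22]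

/-- the set of the 168 matrices -/
def S0 : Set ↥(Cfsg.SU 3 F 3) := {x | ∃ k < 168, mx x = mt i (T.getD k [])}

include h3 hi in
theorem S0_a {l : ↥(Cfsg.SU 3 F 3)} (hl : l ∈ S0 i) : l * aU h3 i hi ∈ S0 i := by
  obtain ⟨k, hk, hm⟩ := hl
  have h := List.all_eq_true.1 chk k (List.mem_range.2 hk)
  simp only [Bool.and_eq_true, beq_iff_eq, decide_eq_true_eq] at h
  exact ⟨NA.getD k 0, h.1.2, by rw [rep_mul h3 i hi hm (mx_a h3 i hi), h.1.1.1]⟩

include h3 hi in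
theorem S0_b {l : ↥(Cfsg.SU 3 F 3)} (hl : l ∈ S0 i) : l * bU i ∈ S0 i := by
  obtain ⟨k, hk, hm⟩ := hl
  have h := List.all_eq_true.1 chk k (List.mem_range.2 hk)
  simp only [Bool.and_eq_true, beq_iff_eq, decide_eq_true_eq] at h
  exact ⟨NB.getD k 0, h.2, by rw [rep_mul h3 i hi hm (mx_b i), h.1.1.2]⟩

/-- the subgroup -/
def HH : Subgroup ↥(Cfsg.SU 3 F 3) := Subgroup.closure {aU h3 i hi, bU i}

theorem HH_S0 {x : ↥(Cfsg.SU 3 F 3)} (hx : x ∈ HH h3 i hi) : x ∈ S0 i := by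
  have ha' : (aU h3 i hi)⁻¹ = aU h3 i hi := inv_eq_of_mul_eq_one_right (aa h3 i hi)
  have hb' : (bU (F := F) i)⁻¹ = bU i * bU i := inv_eq_of_mul_eq_one_right (by rw [← mul_assoc]; exact bbb h3 i hi)
  have key : ∀ l ∈ S0 (F := F) i, l * x ∈ S0 i ∧ l * x⁻¹ ∈ S0 i := by
    unfold HH at hx
    induction hx using Subgroup.closure_induction with
    | mem y hy =>
      intro l hl
      rcases hy with rfl | hy
      · rw [ha']
        exact ⟨S0_a h3 i hi hl, S0_a h3 i hi hl⟩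
      · rw [Set.mem_singleton_iff] at hy
        subst hy
        rw [hb', ← mul_assoc]
        exact ⟨S0_b h3 i hi hl, S0_b h3 i hi (S0_b h3 i hi hl)⟩
    | one =>
      intro l hl
      rw [inv_one, mul_one]
      exact ⟨hl, hl⟩
    | mul u v _ _ ihu ihv =>
      intro l hl
      rw [_root_.mul_inv_rev, ← mul_assoc, ← mul_assoc]
      exact ⟨(ihv _ (ihu l hl).1).1, (ihu _ (ihv l hl).2).2⟩
    | inv u _ ihu =>
      intro l hl
      rw [inv_inv]
      exact ⟨(ihu l hl).2, (ihu l hl).1⟩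
  have h1 : (1 : ↥(Cfsg.SU 3 F 3)) ∈ S0 (F := F) i := ⟨0, by norm_num, by rw [chk0, mt_one, mx_one]⟩
  have := (key 1 h1).1
  rwa [one_mul] at this

theorem card_le [Finite F] : Nat.card (HH h3 i hi) ≤ 168 := by
  have h : ∀ x : HH h3 i hi, ∃ k : Fin 168, mx x.1 = mt i (T.getD k []) := by
    intro x
    obtain ⟨k, hk, hm⟩ := HH_S0 h3 i hi x.2
    exact ⟨⟨k, hk⟩, hm⟩
  choose f hf using h
  have hinj : Function.Injective f := by
    intro x y hxy
    apply Subtype.ext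
    apply mx_inj
    rw [hf x, hf y, hxy]
  have := Nat.card_le_card_of_injective f hinj
  rwa [Nat.card_eq_fintype_card (α := Fin 168), Fintype.card_fin] at this

theorem a_mem : aU h3 i hi ∈ HH h3 i hi := Subgroup.subset_closure (by simp)
theorem b_mem : bU i ∈ HH h3 i hi := Subgroup.subset_closure (by simp)

theorem card_dvd : 84 ∣ Nat.card (HH h3 i hi) := by
  haveI : Fact (Nat.Prime 7) := ⟨by norm_num⟩
  haveI : Fact (Nat.Prime 3) := ⟨by norm_num⟩
  have ha := a_mem h3 i hi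
  have hb := b_mem h3 i hi
  have o7 : orderOf (aU h3 i hi * bU i) = 7 := orderOf_eq_prime (ab7 h3 i hi) (ab_ne h3 i hi)
  have o3 : orderOf (bU (F := F) i) = 3 := orderOf_eq_prime (by rw [pow_succ, sq]; exact bbb h3 i hi) (b_ne i)
  have o4 : orderOf (cU h3 i hi) = 2 ^ (1 + 1) := by
    apply orderOf_eq_prime_pow
    · rw [pow_one, sq]; exact c2_ne h3 i hi
    · have : cU h3 i hi ^ 2 ^ (1 + 1) = (cU h3 i hi * cU h3 i hi) * (cU h3 i hi * cU h3 i hi) := by
        norm_num [pow_succ, mul_assoc]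
      rw [this]; exact c4 h3 i hi
  have d7 := Subgroup.orderOf_dvd_natCard _ ((HH h3 i hi).mul_mem ha hb)
  have d3 := Subgroup.orderOf_dvd_natCard _ hb
  have d4 : orderOf (cU h3 i hi) ∣ Nat.card (HH h3 i hi) := Subgroup.orderOf_dvd_natCard _ (by
    unfold cU
    exact Subgroup.mul_mem _ (Subgroup.mul_mem _ (Subgroup.mul_mem _ ha hb) ha) (Subgroup.mul_mem _ hb hb))
  rw [o7] at d7
  rw [o3] at d3
  rw [o4] at d4
  norm_num at d4
  omega

end F

end CfsgLib.U37
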