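import Cfsg.Agent.LibU37b
import Cfsg.Agent.LibPL11e

set_option autoImplicit false

/-! `PSL₂(7)` inside `PSU₃(3)`, III: simplicity and conclusion (seat helper26). -/

namespace CfsgLib.U37

open Matrix

theorem simple_crit {H : Type*} [Group H] [Finite H] (a b : H) (hgen : Subgroup.closure {a, b} = (⊤ : Subgroup H)) (haa : a * a = 1)
    (hbbb : b * b * b = 1) (hab : (a * b) ^ 7 = 1) (hb1 : b ≠ 1) (h84 : 84 ∣ Nat.card H) (h168 : Nat.card H ≤ 168)
    (hcent : ∀ z : H, z * a = a * z → z * b = b * z → z = 1) : IsSimpleGroup H ∧ Nat.card H = 168 := by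
  have hpos : 0 < Nat.card H := Nat.card_pos
  have hb3 : b ^ 3 = 1 := by rw [pow_succ, sq]; exact hbbb
  have ha2 : a ^ 2 = 1 := by rw [sq]; exact haa
  have ktop : ∀ N : Subgroup H, a ∈ N → b ∈ N → N = ⊤ := by
    intro N ha hb
    rw [eq_top_iff, ← hgen, Subgroup.closure_le]
    intro z hz
    rcases hz with rfl | hz
    · exact ha
    · rw [Set.mem_singleton_iff] at hz
      rw [hz]; exact hb
  -- the three closures
  have key : ∀ (N : Subgroup H) [N.Normal], (a ∈ N ∨ b ∈ N ∨ a * b ∈ N) → N = ⊤ := by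
    intro N hN h
    have m : ∀ x : H, x ∈ N ↔ QuotientGroup.mk' N x = 1 := by
      intro x
      rw [QuotientGroup.mk'_apply, QuotientGroup.eq_one_iff]
    have e1 : (QuotientGroup.mk' N a) ^ 2 = 1 := by rw [← map_pow, ha2, map_one]
    have e2 : (QuotientGroup.mk' N b) ^ 3 = 1 := by rw [← map_pow, hb3, map_one]
    have e3 : (QuotientGroup.mk' N a * QuotientGroup.mk' N b) ^ 7 = 1 := by rw [← map_mul, ← map_pow, hab, map_one]
    rw [m, m, m, map_mul] at h
    have h2 : QuotientGroup.mk' N a = 1 ∧ QuotientGroup.mk' N b = 1 := by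
      generalize QuotientGroup.mk' N a = x at *
      generalize QuotientGroup.mk' N b = y at *
      rcases h with h | h | h
      · refine ⟨h, ?_⟩
        rw [h, one_mul] at e3
        have : y ^ 7 = y := by rw [show (7 : ℕ) = 3 + 3 + 1 by norm_num, pow_add, pow_add, e2, pow_one, one_mul, one_mul]
        rw [← this, e3]
      · refine ⟨?_, h⟩
        rw [h, mul_one] at e3
        have : x ^ 7 = x := by rw [show (7 : ℕ) = 2 + 2 + 2 + 1 by norm_num, pow_add, pow_add, pow_add, e1, pow_one, one_mul, one_mul, one_mul]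
        rw [← this, e3]
      · have hy : y = x := by
          have h1 : x * x = 1 := by rw [← sq]; exact e1
          exact mul_left_cancel (h.trans h1.symm)
        rw [hy] at e2
        have : x ^ 3 = x := by rw [show (3 : ℕ) = 2 + 1 by norm_num, pow_add, e1, pow_one, one_mul]
        rw [this] at e2
        exact ⟨e2, hy.trans e2⟩
    exact ktop N ((m a).2 h2.1) ((m b).2 h2.2)
  have cop : ∀ (N : Subgroup H) [N.Normal] (x : H) (p : ℕ), x ^ p = 1 → Nat.Coprime p N.index → x ∈ N := by
    intro N hN x p hx hp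
    have e1 : (QuotientGroup.mk' N x) ^ p = 1 := by rw [← map_pow, hx, map_one]
    have e2 : (QuotientGroup.mk' N x) ^ N.index = 1 := pow_card_eq_one'
    have : QuotientGroup.mk' N x = 1 := by
      have := pow_gcd_eq_one.2 ⟨e1, e2⟩
      rwa [hp, pow_one] at this
    rwa [QuotientGroup.mk'_apply, QuotientGroup.eq_one_iff] at this
  have idx : ∀ (N : Subgroup H) [N.Normal], N ≠ ⊤ → 42 ∣ N.index := by
    intro N hN hne
    have h2 : 2 ∣ N.index := by
      by_contra h
      exact hne (key N (Or.inl (cop N a 2 ha2 ((Nat.Prime.coprime_iff_not_dvd Nat.prime_two).2 h))))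
    have h3 : 3 ∣ N.index := by
      by_contra h
      exact hne (key N (Or.inr (Or.inl (cop N b 3 hb3 ((Nat.Prime.coprime_iff_not_dvd Nat.prime_three).2 h)))))
    have h7 : 7 ∣ N.index := by
      by_contra h
      exact hne (key N (Or.inr (Or.inr (cop N (a * b) 7 hab ((Nat.Prime.coprime_iff_not_dvd (by norm_num)).2 h)))))
    omega
  have triv : ∀ (N : Subgroup H) [N.Normal], N = ⊥ ∨ N = ⊤ := by
    intro N hN
    by_cases hne : N = ⊤
    · exact Or.inr hne
    · left
      have h1 := idx N hne
      have h2 := N.card_mul_index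
      have hip : 0 < N.index := Nat.pos_of_ne_zero N.index_ne_zero_of_finite
      have h4 : Nat.card N ≤ 4 := by
        have : 42 ≤ N.index := Nat.le_of_dvd hip h1
        nlinarith
      have hNpos : 0 < Nat.card N := Nat.card_pos
      obtain ⟨ψ, hψ⟩ : ∃ ψ : H →* Equiv.Perm N, ψ = (MulAut.toPerm N).comp MulAut.conjNormal := ⟨_, rfl⟩
      have hk : a * b ∈ ψ.ker := by
        rw [MonoidHom.mem_ker]
        have e1 : (ψ (a * b)) ^ 7 = 1 := by rw [← map_pow, hab, map_one]
        have e2 : (ψ (a * b)) ^ Nat.card (Equiv.Perm N) = 1 := pow_card_eq_one'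
        rw [Nat.card_perm] at e2
        have := pow_gcd_eq_one.2 ⟨e1, e2⟩
        have hg : Nat.gcd 7 (Nat.card N).factorial = 1 := by
          interval_cases (Nat.card N) <;> decide
        rwa [hg, pow_one] at this
      have hkt := key ψ.ker (Or.inr (Or.inr hk))
      rw [eq_bot_iff]
      intro z hz
      rw [Subgroup.mem_bot]
      have hc : ∀ g : H, z * g = g * z := by
        intro g
        have h5 : g ∈ ψ.ker := by rw [hkt]; exact Subgroup.mem_top _
        rw [MonoidHom.mem_ker, hψ] at h5
        have h6 := congrArg (fun σ : Equiv.Perm N => ((σ ⟨z, hz⟩ : N) : H)) h5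
        change ((MulAut.conjNormal g : MulAut N) ⟨z, hz⟩ : H) = z at h6
        rw [MulAut.conjNormal_apply] at h6
        change g * z * g⁻¹ = z at h6
        rw [mul_inv_eq_iff_eq_mul] at h6
        exact h6.symm
      exact hcent z (hc a) (hc b)
  haveI : Nontrivial H := ⟨b, 1, hb1⟩
  have hsimple : IsSimpleGroup H := ⟨fun N hN => triv N⟩
  refine ⟨hsimple, ?_⟩
  by_contra hne
  have hcard : Nat.card H = 84 := by omega
  haveI : Fact (Nat.Prime 7) := ⟨by norm_num⟩
  obtain ⟨P⟩ : Nonempty (Sylow 7 H) := inferInstance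
  have hP : Nat.card P = 7 := by
    rw [P.card_eq_multiplicity, hcard]
    have : (84 : ℕ).factorization 7 = 1 := by
      rw [show (84 : ℕ) = 7 * 12 by norm_num, Nat.factorization_mul (by norm_num) (by norm_num), Finsupp.add_apply,
        Nat.Prime.factorization_self (by norm_num), Nat.factorization_eq_zero_of_not_dvd (by norm_num)]
    rw [this]; norm_num
  have hPi : (P : Subgroup H).index = 12 := by
    have h1 := (P : Subgroup H).card_mul_index
    have hP' : Nat.card (P : Subgroup H) = 7 := hP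
    rw [hP', hcard] at h1
    omega
  have hs1 := card_sylow_modEq_one 7 H
  have hs2 := P.card_dvd_index
  rw [hPi] at hs2
  have hs3 : Nat.card (Sylow 7 H) = 1 := by
    have hle := Nat.le_of_dvd (by norm_num) hs2
    unfold Nat.ModEq at hs1
    generalize Nat.card (Sylow 7 H) = n at *
    interval_cases n <;> omega
  haveI : Subsingleton (Sylow 7 H) := (Nat.card_eq_one_iff_unique.1 hs3).1
  have hn := P.normal_of_subsingleton
  have hP' : Nat.card (P : Subgroup H) = 7 := hP
  rcases triv (P : Subgroup H) with h | h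
  · rw [h, Subgroup.card_bot] at hP'
    omega
  · rw [h, Subgroup.card_top] at hP'
    omega

theorem hgen' {G : Type*} [Group G] (a b : G) :
    Subgroup.closure ({⟨a, Subgroup.subset_closure (by simp)⟩, ⟨b, Subgroup.subset_closure (by simp)⟩} : Set ↥(Subgroup.closure ({a, b} : Set G))) = ⊤ := by
  rw [eq_top_iff]
  rintro ⟨x, hx⟩ -
  have hx' := hx
  induction hx' using Subgroup.closure_induction with
  | mem y hy =>
    apply Subgroup.subset_closure
    rcases hy with rfl | hy
    · left; rfl
    · rw [Set.mem_singleton_iff] at hy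
      subst hy
      right; rfl
  | one => exact Subgroup.one_mem _
  | mul u v hu hv ihu ihv => exact Subgroup.mul_mem _ (ihu hu) (ihv hv)
  | inv u hu ihu => exact Subgroup.inv_mem _ (ihu hu)

theorem simple_cl {G : Type*} [Group G] [Finite G] (a b : G) (haa : a * a = 1)
    (hbbb : b * b * b = 1) (hab : (a * b) ^ 7 = 1) (hb1 : b ≠ 1) (h84 : 84 ∣ Nat.card (Subgroup.closure {a, b}))
    (h168 : Nat.card (Subgroup.closure {a, b}) ≤ 168)
    (hcent : ∀ z : G, z * a = a * z → z * b = b * z → z = 1) :
    IsSimpleGroup (Subgroup.closure {a, b}) ∧ Nat.card (Subgroup.closure {a, b}) = 168 :=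
  simple_crit (H := Subgroup.closure {a, b}) ⟨a, Subgroup.subset_closure (by simp)⟩ ⟨b, Subgroup.subset_closure (by simp)⟩ (hgen' a b)
    (Subtype.ext haa) (Subtype.ext hbbb) (Subtype.ext hab) (fun h => hb1 (congrArg Subtype.val h)) h84 h168
    (fun z hza hzb => Subtype.ext (hcent z.1 (congrArg Subtype.val hza) (congrArg Subtype.val hzb)))

theorem fin {G : Type*} [Group G] [Finite G] (a b : G) (haa : a * a = 1)
    (hbbb : b * b * b = 1) (hab : (a * b) ^ 7 = 1) (hb1 : b ≠ 1) (h84 : 84 ∣ Nat.card (Subgroup.closure {a, b}))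
    (h168 : Nat.card (Subgroup.closure {a, b}) ≤ 168)
    (hcent : ∀ z : G, z * a = a * z → z * b = b * z → z = 1) {K : Type*} [Field K] [Fintype K] (hK : Fintype.card K = 7) :
    ∃ H : Subgroup (G ⧸ Subgroup.center G), Nonempty (H ≃* Matrix.ProjectiveSpecialLinearGroup (Fin 2) K) := by
  obtain ⟨hsimp, hc⟩ := simple_cl a b haa hbbb hab hb1 h84 h168 hcent
  haveI := hsimp
  obtain ⟨e⟩ := CfsgLib.PL11.psl_168 hc hK
  have hinj : Function.Injective (QuotientGroup.mk' (Subgroup.center G)) := by
    rw [injective_iff_map_eq_one]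
    intro x hx
    rw [QuotientGroup.mk'_apply, QuotientGroup.eq_one_iff, Subgroup.mem_center_iff] at hx
    exact hcent x (hx _).symm (hx _).symm
  exact ⟨(Subgroup.closure {a, b}).map (QuotientGroup.mk' (Subgroup.center G)),
    ⟨((Subgroup.closure {a, b}).equivMapOfInjective _ hinj).symm.trans e⟩⟩

theorem result {F : Type*} [Field F] [Fintype F] (hF : Fintype.card F = 9)
    {K : Type*} [Field K] [Fintype K] (hK : Fintype.card K = 7) :
    ∃ H : Subgroup (Cfsg.PSU 3 F 3), Nonempty (H ≃* Matrix.ProjectiveSpecialLinearGroup (Fin 2) K) := by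
  have h3 : (3 : F) = 0 := by
    have := FiniteField.cast_card_eq_zero F
    rw [hF] at this
    push_cast at this
    have h9 : (3 : F) ^ 2 = 0 := by linear_combination this
    exact pow_eq_zero_iff (by norm_num) |>.1 h9
  obtain ⟨i, hi⟩ : ∃ i : F, i * i = -1 := by
    have h1 : IsSquare (-1 : F) := by
      rw [FiniteField.isSquare_neg_one_iff, hF]
      norm_num
    obtain ⟨i, hi⟩ := h1
    exact ⟨i, hi.symm⟩
  exact fin (aU h3 i hi) (bU i) (aa h3 i hi) (bbb h3 i hi) (ab7 h3 i hi) (b_ne i) (card_dvd h3 i hi) (card_le h3 i hi)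
    (cent h3 i hi) hK

end CfsgLib.U37
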