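import Cfsg.Agent.LibSU27
import Cfsg.Agent.LibSympAlg27
import Cfsg.Agent.LibH22Fin

set_option autoImplicit false

/-! Elements of `SU_n(q)` from commutative algebras with semilinear involution. -/

namespace CfsgLib.SU27

open Polynomial

/-- commutative algebra with semilinear involution and Hermitian functional -/
structure UAlg {F : Type*} [Field F] (σ : F →+* F) (E : Type*) [CommRing E] [Algebra F E] where
  star : E →+* E
  inv : ∀ x, star (star x) = x
  semi : ∀ c : F, star (algebraMap F E c) = algebraMap F E (σ c)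
  lam : E →ₗ[F] F
  herm : ∀ x, lam (star x) = σ (lam x)
  nd : ∀ x : E, x ≠ 0 → ∃ y, lam (x * y) ≠ 0

variable {F : Type*} [Field F] {σ : F →+* F}

theorem UAlg.star_smul {E : Type*} [CommRing E] [Algebra F E] (S : UAlg σ E) (c : F) (x : E) :
    S.star (c • x) = σ c • S.star x := by
  rw [Algebra.smul_def, map_mul, S.semi, ← Algebra.smul_def]

/-- product -/
def UAlg.prod {E E' : Type*} [CommRing E] [Algebra F E] [CommRing E'] [Algebra F E']
    (S : UAlg σ E) (S' : UAlg σ E') : UAlg σ (E × E') where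
  star := RingHom.prodMap S.star S'.star
  inv := fun x => Prod.ext (S.inv x.1) (S'.inv x.2)
  semi := fun c => Prod.ext (S.semi c) (S'.semi c)
  lam := S.lam.comp (LinearMap.fst F E E') + S'.lam.comp (LinearMap.snd F E E')
  herm := fun x => by
    show S.lam (S.star x.1) + S'.lam (S'.star x.2) = σ (S.lam x.1 + S'.lam x.2)
    rw [S.herm, S'.herm, map_add]
  nd := fun x hx => by
    by_cases h : x.1 = 0
    · have h2 : x.2 ≠ 0 := fun h2 => hx (Prod.ext h h2)
      obtain ⟨y, hy⟩ := S'.nd x.2 h2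
      exact ⟨(0, y), by simpa using hy⟩
    · obtain ⟨y, hy⟩ := S.nd x.1 h
      exact ⟨(y, 0), by simpa using hy⟩

/-- The Gram form. -/
def UAlg.form {E : Type*} [CommRing E] [Algebra F E] (S : UAlg σ E) : E →ₛₗ[σ] E →ₗ[F] F :=
  LinearMap.mk₂'ₛₗ σ (RingHom.id F) (fun x y => S.lam (S.star x * y))
    (fun x x' y => by rw [map_add, add_mul, map_add])
    (fun c x y => by rw [S.star_smul, smul_mul_assoc, map_smul])
    (fun x y y' => by rw [mul_add, map_add])
    (fun c x y => by rw [mul_smul_comm, map_smul]; rfl)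

theorem UAlg.form_apply {E : Type*} [CommRing E] [Algebra F E] (S : UAlg σ E) (x y : E) :
    S.form x y = S.lam (S.star x * y) := rfl

theorem UAlg.form_symm {E : Type*} [CommRing E] [Algebra F E] (S : UAlg σ E) (x y : E) :
    σ (S.form x y) = S.form y x := by
  rw [S.form_apply, S.form_apply, ← S.herm, map_mul, S.inv, mul_comm]

theorem UAlg.form_nd {E : Type*} [CommRing E] [Algebra F E] (S : UAlg σ E) (x : E) (hx : x ≠ 0) :
    ∃ y, S.form x y ≠ 0 := by
  have h1 : S.star x ≠ 0 := by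
    intro h
    apply hx
    rw [← S.inv x, h, map_zero]
  exact S.nd _ h1

/-- Elements of norm one give elements of `SU`. -/
theorem UAlg.exists_su [Finite F] {q : ℕ} (hσ : ∀ x, σ x = x ^ q) (hσ1 : σ ≠ RingHom.id F) (hσ2 : ∀ x, σ (σ x) = x)
    (hex : ∃ ζ : F, ζ ^ (q + 1) = 1 ∧ ζ ^ 2 ≠ 1)
    {E : Type*} [CommRing E] [Algebra F E] [FiniteDimensional F E]
    (S : UAlg σ E) {n : ℕ} (hE : Module.finrank F E = n) :
    ∃ b : Module.Basis (Fin n) F E, ∀ x : E, adj σ (Algebra.leftMulMatrix b x) = Algebra.leftMulMatrix b (S.star x) ∧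
      (S.star x * x = 1 → Algebra.norm F x = 1 →
        ∃ g : Cfsg.SU n F q,
          ((g : Matrix.SpecialLinearGroup (Fin n) F) : Matrix (Fin n) (Fin n) F) = Algebra.leftMulMatrix b x ∧
          (∀ k : ℕ, g ^ k = 1 ↔ x ^ k = 1) ∧
          ∀ k : ℕ, (QuotientGroup.mk g : Cfsg.PSU n F q) ^ k = 1 ↔ ∃ c : F, x ^ k = algebraMap F E c) := by
  classical
  subst hE
  obtain ⟨b, hb⟩ := CfsgLib.Herm27.exists_orthonormal_basis hσ1 hσ2 S.form S.form_symm S.form_nd
  have hrepr : ∀ (y : E) (i), b.repr y i = S.form (b i) y := by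
    intro y i
    conv_rhs => rw [← b.sum_repr y, map_sum]
    simp only [map_smul, hb, smul_eq_mul, mul_ite, mul_one, mul_zero, Finset.sum_ite_eq, Finset.mem_univ, if_true]
  have hadj : ∀ x : E, adj σ (Algebra.leftMulMatrix b x) = Algebra.leftMulMatrix b (S.star x) := by
    intro x
    ext i j
    have h1 : S.star (x * b i) * b j = S.star (b i) * (S.star x * b j) := by rw [map_mul]; ring
    rw [adj_apply, Algebra.leftMulMatrix_eq_repr_mul, Algebra.leftMulMatrix_eq_repr_mul, hrepr, hrepr, S.form_symm,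
      S.form_apply, S.form_apply, h1]
  refine ⟨b, fun x => ⟨hadj x, fun hx hN => ?_⟩⟩
  obtain ⟨g0, hg0⟩ : ∃ g : Matrix.SpecialLinearGroup (Fin (Module.finrank F E)) F,
      (g : Matrix (Fin (Module.finrank F E)) (Fin (Module.finrank F E)) F) = Algebra.leftMulMatrix b x :=
    ⟨⟨Algebra.leftMulMatrix b x, by rw [← Algebra.norm_eq_matrix_det, hN]⟩, rfl⟩
  have hmem : g0 ∈ Cfsg.SU (Module.finrank F E) F q := by
    rw [mem_SU_iff σ hσ hσ2, hg0, hadj, ← map_mul, hx, map_one]
  have hpow : ∀ k : ℕ, (((⟨g0, hmem⟩ ^ k : Cfsg.SU (Module.finrank F E) F q) :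
      Matrix.SpecialLinearGroup (Fin (Module.finrank F E)) F) :
      Matrix (Fin (Module.finrank F E)) (Fin (Module.finrank F E)) F) = Algebra.leftMulMatrix b (x ^ k) := by
    intro k
    rw [Subgroup.coe_pow, Matrix.SpecialLinearGroup.coe_pow, hg0, map_pow]
  refine ⟨⟨g0, hmem⟩, hg0, ?_, ?_⟩
  · intro k
    constructor
    · intro h
      have h1 := hpow k
      rw [h] at h1
      apply Algebra.leftMulMatrix_injective b
      rw [← h1, map_one]; rfl
    · intro h
      apply Subtype.ext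
      apply Subtype.ext
      have h1 := hpow k
      rw [h, map_one] at h1
      exact h1
  · intro k
    rw [← QuotientGroup.mk_pow, mk_eq_one_iff σ hσ hσ2 hex]
    constructor
    · rintro ⟨c, hc⟩
      refine ⟨c, Algebra.leftMulMatrix_injective b ?_⟩
      rw [← hpow, hc, AlgHom.commutes, Algebra.algebraMap_eq_smul_one]
    · rintro ⟨c, hc⟩
      refine ⟨c, ?_⟩
      rw [hpow, hc, AlgHom.commutes, Algebra.algebraMap_eq_smul_one]

section Algebras

/-- the base field -/
def baseAlg (hσ2 : ∀ x, σ (σ x) = x) : UAlg σ F where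
  star := σ
  inv := hσ2
  semi := fun c => rfl
  lam := LinearMap.id
  herm := fun x => rfl
  nd := fun x hx => ⟨1, by simpa using hx⟩

theorem norm_prod' {E E' : Type*} [CommRing E] [Algebra F E] [CommRing E'] [Algebra F E'] [FiniteDimensional F E]
    [FiniteDimensional F E'] (x : E) (y : E') : Algebra.norm F ((x, y) : E × E') = Algebra.norm F x * Algebra.norm F y := by
  rw [Algebra.norm_apply, Algebra.norm_apply, Algebra.norm_apply, ← LinearMap.det_prodMap]
  rfl

/-- odd torus -/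
theorem exists_odd_torus [Fintype F] (p : ℕ) [Fact p.Prime] [CharP F p] {q : ℕ} (hF : Fintype.card F = q ^ 2)
    (hσ : ∀ x, σ x = x ^ q) {n : ℕ} (hn : Odd n) :
    ∃ (E : Type) (_ : CommRing E) (_ : Algebra F E) (_ : FiniteDimensional F E) (S : UAlg σ E) (u : E),
      Module.finrank F E = n ∧ S.star u * u = 1 ∧ Algebra.norm F u = 1 ∧
        (∀ k : ℕ, u ^ k = 1 ↔ (q ^ n + 1) / (q + 1) ∣ k) := by
  haveI : NeZero n := ⟨hn.pos.ne'⟩
  let L := FiniteField.Extension F p n
  have hL : Module.finrank F L = n := FiniteField.finrank_extension F p n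
  haveI : Finite L := Module.finite_of_finite F
  haveI := Fintype.ofFinite L
  have hcard : Nat.card L = q ^ (2 * n) := by
    rw [FiniteField.natCard_extension, Nat.card_eq_fintype_card, hF, pow_mul]
  have hq2 : 2 ≤ q := Cfsg.Agent.H22.two_le_of_card_sq hF
  have hqn : 1 ≤ q ^ n := Nat.one_le_pow _ _ (by omega)
  have hdvd : q + 1 ∣ q ^ n + 1 := by
    simpa using hn.nat_add_dvd_pow_add_pow q 1
  obtain ⟨s, hs⟩ := hdvd
  have hsd : (q ^ n + 1) / (q + 1) = s := by rw [hs]; exact Nat.mul_div_cancel_left _ (by omega)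
  have hcard' : Nat.card L - 1 = (q ^ n - 1) * (q ^ n + 1) := by
    rw [hcard, two_mul, pow_add]
    obtain ⟨a, ha⟩ : ∃ a, q ^ n = a + 1 := ⟨_, (Nat.sub_add_cancel hqn).symm⟩
    rw [ha]
    simp only [Nat.add_sub_cancel]
    have : (a + 1) * (a + 1) = a * (a + 1 + 1) + 1 := by ring
    rw [this, Nat.add_sub_cancel]
  obtain ⟨x, hx⟩ := CfsgLib.SympAlg27.exists_unit_orderOf (K := L) (N := s) (by
    rw [hcard', hs]; exact (dvd_mul_left s (q + 1)).mul_left _)
  obtain ⟨c, hqc⟩ : ∃ c, q = p ^ c := by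
    obtain ⟨a, hp, ha⟩ := FiniteField.card F p
    rw [hF] at ha
    obtain ⟨c, -, hc⟩ := (Nat.dvd_prime_pow hp).1 (show q ∣ p ^ (a : ℕ) by rw [← ha]; exact dvd_pow_self q two_ne_zero)
    exact ⟨c, hc⟩
  haveI : CharP L p := charP_of_injective_algebraMap (algebraMap F L).injective p
  have hqd : q ^ n = p ^ (c * n) := by rw [hqc, pow_mul]
  obtain ⟨j, hj⟩ := hn
  have hsemi : ∀ c : F, c ^ (q ^ n) = c ^ q := by
    intro c
    rw [hj, pow_succ, pow_mul, pow_mul q 2 j, ← hF, FiniteField.pow_card_pow]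
  let st : L →+* L :=
    { toFun := fun x => x ^ (q ^ n)
      map_one' := one_pow _
      map_mul' := fun x y => mul_pow _ _ _
      map_zero' := zero_pow (by omega)
      map_add' := fun x y => by rw [hqd, add_pow_char_pow] }
  have hst : ∀ x, st x = x ^ (q ^ n) := fun x => rfl
  have hss : ∀ x, st (st x) = x := by
    intro x
    rw [hst, hst, ← pow_mul, ← pow_add, ← two_mul, ← hcard, Nat.card_eq_fintype_card]
    exact FiniteField.pow_card x
  have hsm : ∀ c : F, st (algebraMap F L c) = algebraMap F L (σ c) := by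
    intro c
    rw [hst, ← map_pow, hsemi, hσ]
  have htr : ∀ x, Algebra.trace F L (st x) = σ (Algebra.trace F L x) := by
    intro x
    apply (algebraMap F L).injective
    rw [← hsm, trace_eq_sum_automorphisms, trace_eq_sum_automorphisms, map_sum]
    refine Finset.sum_congr rfl fun τ _ => ?_
    rw [hst, hst, map_pow]
  let S : UAlg σ L :=
    { star := st
      inv := hss
      semi := hsm
      lam := Algebra.trace F L
      herm := htr
      nd := fun x hx => by
        obtain ⟨c, hc⟩ := Algebra.trace_surjective F L 1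
        refine ⟨x⁻¹ * c, ?_⟩
        rw [mul_inv_cancel_left₀ hx, hc]
        exact one_ne_zero }
  have hxs : ∀ m : ℕ, s ∣ m → (x : L) ^ m = 1 := by
    intro m hm
    rw [← Units.val_pow_eq_pow_val, orderOf_dvd_iff_pow_eq_one.1 (by rw [hx]; exact hm), Units.val_one]
  refine ⟨L, inferInstance, inferInstance, inferInstance, S, (x : L), hL, ?_, ?_, ?_⟩
  · show (x : L) ^ (q ^ n) * (x : L) = 1
    rw [← pow_succ]
    exact hxs _ ⟨q + 1, by rw [hs, mul_comm]⟩
  · apply (algebraMap F L).injective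
    rw [FiniteField.algebraMap_norm_eq_pow, map_one]
    apply hxs
    have h1 : q - 1 ∣ q ^ n - 1 := by simpa using Nat.sub_dvd_pow_sub_pow q 1 n
    obtain ⟨r, hr⟩ := h1
    have h3 : Nat.card F - 1 = (q - 1) * (q + 1) := by
      rw [Nat.card_eq_fintype_card, hF]
      obtain ⟨a, ha⟩ : ∃ a, q = a + 1 := ⟨q - 1, by omega⟩
      rw [ha]
      simp only [Nat.add_sub_cancel]
      have : (a + 1) ^ 2 = a * (a + 1 + 1) + 1 := by ring
      rw [this, Nat.add_sub_cancel]
    have h4 : (Nat.card L - 1) / (Nat.card F - 1) = r * s := by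
      rw [hcard', h3, hr, hs]
      have : (q - 1) * r * ((q + 1) * s) = (q - 1) * (q + 1) * (r * s) := by ring
      rw [this]
      exact Nat.mul_div_cancel_left _ (Nat.mul_pos (by omega) (by omega))
    rw [h4]
    exact dvd_mul_left _ _
  · intro k
    rw [hsd, ← hx, orderOf_dvd_iff_pow_eq_one]
    constructor
    · intro h; ext; simpa using h
    · intro h; rw [← Units.val_pow_eq_pow_val, h, Units.val_one]

/-- even torus -/
theorem exists_even_torus [Fintype F] (p : ℕ) [Fact p.Prime] [CharP F p] {q : ℕ} (hF : Fintype.card F = q ^ 2)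
    (hσ : ∀ x, σ x = x ^ q) {m : ℕ} (hm : 1 ≤ m) :
    ∃ (E : Type) (_ : CommRing E) (_ : Algebra F E) (_ : FiniteDimensional F E) (S : UAlg σ E) (u : E),
      Module.finrank F E = 2 * m ∧ S.star u * u = 1 ∧ Algebra.norm F u = 1 ∧
        (∀ k : ℕ, u ^ k = 1 ↔ (q ^ (2 * m) - 1) / (q + 1) ∣ k) := by
  haveI : NeZero m := ⟨by omega⟩
  let K := FiniteField.Extension F p m
  have hK : Module.finrank F K = m := FiniteField.finrank_extension F p m
  haveI : Finite K := Module.finite_of_finite F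
  haveI := Fintype.ofFinite K
  have hcard : Nat.card K = q ^ (2 * m) := by
    rw [FiniteField.natCard_extension, Nat.card_eq_fintype_card, hF, pow_mul]
  have hq2 : 2 ≤ q := Cfsg.Agent.H22.two_le_of_card_sq hF
  have hq2m : q ^ 2 - 1 ∣ q ^ (2 * m) - 1 := by
    rw [pow_mul]; simpa using Nat.sub_dvd_pow_sub_pow (q ^ 2) 1 m
  have hq21 : q ^ 2 - 1 = (q - 1) * (q + 1) := by
    obtain ⟨a, ha⟩ : ∃ a, q = a + 1 := ⟨q - 1, by omega⟩
    rw [ha]
    simp only [Nat.add_sub_cancel]
    have : (a + 1) ^ 2 = a * (a + 1 + 1) + 1 := by ring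
    rw [this, Nat.add_sub_cancel]
  obtain ⟨r, hr⟩ := hq2m
  -- `q ^ 2m - 1 = (q + 1) * s` with `s = (q - 1) * r`
  have hs : q ^ (2 * m) - 1 = (q + 1) * ((q - 1) * r) := by rw [hr, hq21]; ring
  have hsd : (q ^ (2 * m) - 1) / (q + 1) = (q - 1) * r := by rw [hs]; exact Nat.mul_div_cancel_left _ (by omega)
  obtain ⟨x, hx⟩ := CfsgLib.SympAlg27.exists_unit_orderOf (K := K) (N := (q - 1) * r) (by
    rw [hcard, hs]; exact dvd_mul_left _ _)
  obtain ⟨c, hqc⟩ : ∃ c, q = p ^ c := by
    obtain ⟨a, hp, ha⟩ := FiniteField.card F p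
    rw [hF] at ha
    obtain ⟨c, -, hc⟩ := (Nat.dvd_prime_pow hp).1 (show q ∣ p ^ (a : ℕ) by rw [← ha]; exact dvd_pow_self q two_ne_zero)
    exact ⟨c, hc⟩
  haveI : CharP K p := charP_of_injective_algebraMap (algebraMap F K).injective p
  let φ : K →+* K := iterateFrobenius K p c
  have hφ : ∀ x, φ x = x ^ q := fun x => by
    show iterateFrobenius K p c x = _
    rw [iterateFrobenius_def, hqc]
  let φ' : K →+* K := iterateFrobenius K p (c * (2 * m - 1))
  have hφ' : ∀ x, φ' x = x ^ (q ^ (2 * m - 1)) := fun x => by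
    show iterateFrobenius K p (c * (2 * m - 1)) x = _
    rw [iterateFrobenius_def, hqc, pow_mul]
  have hpc : ∀ x : K, x ^ (q ^ (2 * m)) = x := by
    intro x
    rw [← hcard, Nat.card_eq_fintype_card]
    exact FiniteField.pow_card x
  have hφφ' : ∀ x, φ (φ' x) = x := by
    intro x
    rw [hφ, hφ', ← pow_mul, ← pow_succ, Nat.sub_add_cancel (by omega), hpc]
  have hφ'φ : ∀ x, φ' (φ x) = x := by
    intro x
    rw [hφ, hφ', ← pow_mul, ← pow_succ', Nat.sub_add_cancel (by omega), hpc]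
  have hsemi : ∀ c : F, φ (algebraMap F K c) = algebraMap F K (σ c) := by
    intro c; rw [hφ, hσ, map_pow]
  have hsemi' : ∀ c : F, φ' (algebraMap F K c) = algebraMap F K (σ c) := by
    intro c
    rw [hφ', hσ, ← map_pow]
    congr 1
    obtain ⟨j, rfl⟩ : ∃ j, m = j + 1 := ⟨m - 1, by omega⟩
    rw [show 2 * (j + 1) - 1 = 2 * j + 1 by omega, pow_succ, pow_mul, pow_mul q 2 j, ← hF, FiniteField.pow_card_pow]
  have htr : ∀ x, Algebra.trace F K (φ x) = σ (Algebra.trace F K x) := by
    intro x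
    apply (algebraMap F K).injective
    rw [← hsemi, trace_eq_sum_automorphisms, trace_eq_sum_automorphisms, map_sum]
    refine Finset.sum_congr rfl fun τ _ => ?_
    rw [hφ, hφ, map_pow]
  have htr' : ∀ x, Algebra.trace F K (φ' x) = σ (Algebra.trace F K x) := by
    intro x
    apply (algebraMap F K).injective
    rw [← hsemi', trace_eq_sum_automorphisms, trace_eq_sum_automorphisms, map_sum]
    refine Finset.sum_congr rfl fun τ _ => ?_
    rw [hφ', hφ', map_pow]
  let S : UAlg σ (K × K) :=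
    { star := (φ'.comp (RingHom.snd K K)).prod (φ.comp (RingHom.fst K K))
      inv := fun x => Prod.ext (hφ'φ x.1) (hφφ' x.2)
      semi := fun c => Prod.ext (hsemi' c) (hsemi c)
      lam := (Algebra.trace F K).comp (LinearMap.fst F K K) + (Algebra.trace F K).comp (LinearMap.snd F K K)
      herm := fun x => by
        show Algebra.trace F K (φ' x.2) + Algebra.trace F K (φ x.1) = σ (Algebra.trace F K x.1 + Algebra.trace F K x.2)
        rw [htr, htr', map_add, add_comm]
      nd := fun x hx => by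
        obtain ⟨c, hc⟩ := Algebra.trace_surjective F K 1
        by_cases h : x.1 = 0
        · have h2 : x.2 ≠ 0 := fun h2 => hx (Prod.ext h h2)
          refine ⟨(0, x.2⁻¹ * c), ?_⟩
          show Algebra.trace F K (x.1 * 0) + Algebra.trace F K (x.2 * (x.2⁻¹ * c)) ≠ 0
          rw [mul_zero, map_zero, mul_inv_cancel_left₀ h2, hc, zero_add]
          exact one_ne_zero
        · refine ⟨(x.1⁻¹ * c, 0), ?_⟩
          show Algebra.trace F K (x.1 * (x.1⁻¹ * c)) + Algebra.trace F K (x.2 * 0) ≠ 0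
          rw [mul_zero, map_zero, mul_inv_cancel_left₀ h, hc, add_zero]
          exact one_ne_zero }
  have hxs : ∀ k : ℕ, (q - 1) * r ∣ k → (x : K) ^ k = 1 := by
    intro k hk
    rw [← Units.val_pow_eq_pow_val, orderOf_dvd_iff_pow_eq_one.1 (by rw [hx]; exact hk), Units.val_one]
  have hx0 : (x : K) ≠ 0 := x.ne_zero
  refine ⟨K × K, inferInstance, inferInstance, inferInstance, S, ((x : K), (φ (x : K))⁻¹), ?_, ?_, ?_, ?_⟩
  · rw [Module.finrank_prod, hK]; ring
  · show (φ' ((φ (x : K))⁻¹) * (x : K), φ (x : K) * (φ (x : K))⁻¹) = (1, 1)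
    rw [map_inv₀, hφ'φ, inv_mul_cancel₀ hx0, mul_inv_cancel₀]
    rw [hφ]; exact pow_ne_zero _ hx0
  · rw [norm_prod']
    apply (algebraMap F K).injective
    rw [map_mul, FiniteField.algebraMap_norm_eq_pow, FiniteField.algebraMap_norm_eq_pow, map_one, hφ, hcard,
      Nat.card_eq_fintype_card, hF, hr]
    have h4 : (q ^ 2 - 1) * r / (q ^ 2 - 1) = r := by
      apply Nat.mul_div_cancel_left
      rw [hq21]
      exact Nat.mul_pos (by omega) (by omega)
    rw [h4, inv_pow, ← pow_mul]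
    have h5 : q * r = (q - 1) * r + r := by
      obtain ⟨a, ha⟩ : ∃ a, q = a + 1 := ⟨q - 1, by omega⟩
      rw [ha]; simp only [Nat.add_sub_cancel]; ring
    rw [h5, pow_add, hxs _ dvd_rfl, one_mul, mul_inv_cancel₀ (pow_ne_zero _ hx0)]
  · intro k
    rw [hsd, ← hx, orderOf_dvd_iff_pow_eq_one]
    constructor
    · intro h
      have := congrArg Prod.fst h
      ext; simpa using this
    · intro h
      have h1 : (x : K) ^ k = 1 := by rw [← Units.val_pow_eq_pow_val, h, Units.val_one]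
      refine Prod.ext h1 ?_
      show ((φ (x : K))⁻¹) ^ k = 1
      rw [inv_pow, ← map_pow, h1, map_one, inv_one]

universe u

/-- The unipotent algebra `F[ε]/(ε ^ k)`. -/
theorem exists_unip_alg {F : Type u} [Field F] {σ : F →+* F} (p : ℕ) [Fact p.Prime] [CharP F p]
    (hσ1 : σ ≠ RingHom.id F) (hσ2 : ∀ x, σ (σ x) = x) {k : ℕ}
    (hk : 1 ≤ k) (t : ℕ) (ht : k ≤ p ^ t) (ht' : ∀ s, s < t → p ^ s < k) :
    ∃ (E : Type u) (_ : CommRing E) (_ : Algebra F E) (_ : FiniteDimensional F E) (S : UAlg σ E) (u : E),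
      Nontrivial E ∧ Module.finrank F E = k ∧ S.star u * u = 1 ∧ Algebra.norm F u = 1 ∧ u ^ (p ^ t) = 1 ∧
        ∀ (j : ℕ), (∃ c, u ^ j = algebraMap F E c) → p ^ t ∣ j := by
  obtain ⟨a0, ha0⟩ : ∃ a, σ a ≠ a := by
    by_contra hcon
    push Not at hcon
    exact hσ1 (RingHom.ext hcon)
  obtain ⟨a, ha⟩ : ∃ a, a + σ a ≠ 0 := by
    by_contra hcon
    push Not at hcon
    apply hσ1
    ext x
    have h1 := hcon 1
    rw [map_one] at h1
    have h2 := hcon x
    show σ x = x
    linear_combination h2 - x * h1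
  obtain ⟨κ, hκ0, hκ⟩ : ∃ κ : F, κ ≠ 0 ∧ σ κ = (-1) ^ (k - 1) * κ := by
    rcases Nat.even_or_odd (k - 1) with h | h
    · exact ⟨1, one_ne_zero, by rw [h.neg_one_pow, map_one, one_mul]⟩
    · refine ⟨a0 - σ a0, sub_ne_zero.mpr (Ne.symm ha0), ?_⟩
      rw [h.neg_one_pow, map_sub, hσ2]; ring
  let E := AdjoinRoot ((X : F[X]) ^ k)
  have hmon : ((X : F[X]) ^ k).Monic := Polynomial.monic_X_pow _
  have hdeg : ((X : F[X]) ^ k).natDegree = k := Polynomial.natDegree_X_pow _
  let pb := AdjoinRoot.powerBasis' hmon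
  have hdim : pb.dim = k := by simp [pb, AdjoinRoot.powerBasis', hdeg]
  let b : Module.Basis (Fin k) F E := pb.basis.reindex (finCongr hdim)
  let ε : E := AdjoinRoot.root _
  have hb : ∀ i, b i = ε ^ (i : ℕ) := by
    intro i
    simp only [b, Module.Basis.reindex_apply, PowerBasis.coe_basis]
    rfl
  haveI : Nontrivial E := by
    apply AdjoinRoot.nontrivial
    rw [Polynomial.degree_eq_natDegree hmon.ne_zero, hdeg]
    simp; omega
  haveI : CharP E p := charP_of_injective_algebraMap (algebraMap F E).injective p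
  have hε : ∀ j : ℕ, ε ^ j = 0 ↔ k ≤ j := by
    intro j
    have h1 : ε ^ j = AdjoinRoot.mk _ (X ^ j) := by simp [ε, AdjoinRoot.mk_X]
    rw [h1, AdjoinRoot.mk_eq_zero]
    constructor
    · intro h
      by_contra hk
      have := Polynomial.natDegree_le_of_dvd h (pow_ne_zero _ Polynomial.X_ne_zero)
      rw [Polynomial.natDegree_X_pow, Polynomial.natDegree_X_pow] at this
      omega
    · intro h
      exact pow_dvd_pow _ h
  have hstar0 : Polynomial.eval₂ ((algebraMap F E).comp σ) (-ε) ((X : F[X]) ^ k) = 0 := by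
    rw [Polynomial.eval₂_pow, Polynomial.eval₂_X, neg_pow, (hε _).2 le_rfl, mul_zero]
  let s : E →+* E := AdjoinRoot.lift ((algebraMap F E).comp σ) (-ε) hstar0
  have hs : s ε = -ε := AdjoinRoot.lift_root _
  have hsc : ∀ c : F, s (algebraMap F E c) = algebraMap F E (σ c) := by
    intro c
    exact AdjoinRoot.lift_of _
  have hssm : ∀ (c : F) (x : E), s (c • x) = σ c • s x := by
    intro c x
    rw [Algebra.smul_def, map_mul, hsc, ← Algebra.smul_def]
  have hss : ∀ x, s (s x) = x := by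
    intro x
    rw [← b.sum_repr x, map_sum, map_sum]
    refine Finset.sum_congr rfl fun i _ => ?_
    rw [hssm, hssm, hσ2, hb, map_pow, map_pow, hs, map_neg, hs, neg_neg]
  let i0 : Fin k := ⟨k - 1, by omega⟩
  let l : E →ₗ[F] F := κ • b.coord i0
  have hl : ∀ j : ℕ, l (ε ^ j) = if j = k - 1 then κ else 0 := by
    intro j
    by_cases hj : j < k
    · have : ε ^ j = b ⟨j, hj⟩ := (hb ⟨j, hj⟩).symm
      rw [this]
      show κ • b.repr (b _) i0 = _
      rw [Module.Basis.repr_self, Finsupp.single_apply]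
      simp only [i0, Fin.mk.injEq]
      split_ifs <;> simp
    · rw [(hε j).2 (by omega), map_zero, if_neg (by omega)]
  have hanti : ∀ x, l (s x) = σ (l x) := by
    intro x
    rw [← b.sum_repr x, map_sum, map_sum, map_sum, map_sum]
    refine Finset.sum_congr rfl fun i _ => ?_
    rw [hssm, map_smul, map_smul, hb, map_pow, hs, neg_pow]
    have : (-1 : E) ^ (i : ℕ) * ε ^ (i : ℕ) = ((-1 : F) ^ (i : ℕ)) • ε ^ (i : ℕ) := by
      rw [Algebra.smul_def, map_pow, map_neg, map_one]
    rw [this, map_smul, hl, smul_eq_mul, smul_eq_mul, smul_eq_mul, map_mul]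
    split_ifs with h
    · rw [hκ, h]
    · rw [map_zero, mul_zero]
  have hnd : ∀ x : E, x ≠ 0 → ∃ y, l (x * y) ≠ 0 := by
    intro x hx
    obtain ⟨i, hi⟩ : ∃ i, b.repr x i ≠ 0 := by
      by_contra hcon
      push Not at hcon
      apply hx
      apply b.repr.injective
      ext i
      rw [hcon i, map_zero]; rfl
    refine ⟨ε ^ (k - 1 - (i : ℕ)), ?_⟩
    have h1 : x * ε ^ (k - 1 - (i : ℕ)) = ∑ j, b.repr x j • ε ^ ((j : ℕ) + (k - 1 - (i : ℕ))) := by
      conv_lhs => rw [← b.sum_repr x, Finset.sum_mul]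
      refine Finset.sum_congr rfl fun j _ => ?_
      rw [hb, smul_mul_assoc, ← pow_add]
    rw [h1, map_sum, Finset.sum_eq_single i]
    · rw [map_smul, hl, if_pos (by have := i.2; omega), smul_eq_mul]
      exact mul_ne_zero hi hκ0
    · intro j _ hj
      rw [map_smul, hl, if_neg, smul_zero]
      intro h
      apply hj
      ext
      have := i.2
      omega
    · intro h; exact absurd (Finset.mem_univ _) h
  let S : UAlg σ E := ⟨s, hss, hsc, l, hanti, hnd⟩
  have hnil : IsNilpotent (σ a • ε) := ⟨k, by rw [_root_.smul_pow, (hε _).2 le_rfl, smul_zero]⟩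
  obtain ⟨v, hv⟩ : IsUnit (1 - σ a • ε) := hnil.isUnit_one_sub
  have hv1 : (1 - σ a • ε) * ((v⁻¹ : Eˣ) : E) = 1 := by rw [← hv, Units.mul_inv]
  have hsv : (1 + a • ε) * s ((v⁻¹ : Eˣ) : E) = 1 := by
    have := congrArg s hv1
    rw [map_mul, map_sub, map_one, hssm, hs, hσ2, smul_neg, sub_neg_eq_add] at this
    exact this
  let u : E := (1 + a • ε) * ((v⁻¹ : Eˣ) : E)
  have hu1 : u = 1 + ((a + σ a) • ε) * ((v⁻¹ : Eˣ) : E) := by
    show (1 + a • ε) * ((v⁻¹ : Eˣ) : E) = _
    rw [add_smul]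
    linear_combination hv1
  have hu : s u * u = 1 := by
    show s ((1 + a • ε) * ((v⁻¹ : Eˣ) : E)) * ((1 + a • ε) * ((v⁻¹ : Eˣ) : E)) = 1
    rw [map_mul, map_add, map_one, hssm, hs, smul_neg]
    calc (1 + -(σ a • ε)) * s ((v⁻¹ : Eˣ) : E) * ((1 + a • ε) * ((v⁻¹ : Eˣ) : E))
        = ((1 - σ a • ε) * ((v⁻¹ : Eˣ) : E)) * ((1 + a • ε) * s ((v⁻¹ : Eˣ) : E)) := by ring
      _ = 1 := by rw [hv1, hsv, one_mul]
  have hpow : ∀ j : ℕ, u ^ (p ^ j) = 1 + ((a + σ a) ^ (p ^ j)) • (ε ^ (p ^ j) * ((v⁻¹ : Eˣ) : E) ^ (p ^ j)) := by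
    intro j
    rw [hu1, add_pow_char_pow, one_pow, mul_pow, _root_.smul_pow, smul_mul_assoc]
  have hfin : Module.finrank F E = k := by
    rw [Module.finrank_eq_card_basis b, Fintype.card_fin]
  have hpt : u ^ (p ^ t) = 1 := by rw [hpow, (hε _).2 ht, zero_mul, smul_zero, add_zero]
  refine ⟨E, inferInstance, inferInstance, Module.Basis.finiteDimensional_of_finite b, S, u, inferInstance, hfin, hu, ?_,
    hpt, ?_⟩
  · have h1 : (Algebra.norm F u) ^ (p ^ t) = 1 := by
      rw [← map_pow, hpt, map_one]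
    have h2 : (Algebra.norm F u - 1) ^ (p ^ t) = 0 := by
      rw [sub_pow_char_pow, h1, one_pow, sub_self]
    exact sub_eq_zero.mp (pow_eq_zero_iff (pow_ne_zero _ (Fact.out : p.Prime).ne_zero) |>.1 h2)
  · rintro j ⟨c, hc⟩
    -- first, `c = 1`
    have hc1 : u ^ j = 1 := by
      have h1 : (algebraMap F E c) ^ (p ^ t) = 1 := by
        rw [← hc, ← pow_mul, mul_comm, pow_mul, hpt, one_pow]
      have h2 : (algebraMap F E c - 1) ^ (p ^ t) = 0 := by
        rw [sub_pow_char_pow, h1, one_pow, sub_self]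
      have h3 : (c - 1) ^ (p ^ t) = 0 := by
        apply (algebraMap F E).injective
        rw [map_pow, map_sub, map_one, h2, map_zero]
      have h4 : c = 1 := sub_eq_zero.mp (pow_eq_zero_iff (pow_ne_zero _ (Fact.out : p.Prime).ne_zero) |>.1 h3)
      rw [hc, h4, map_one]
    have hord : orderOf u = p ^ t := by
      rcases Nat.eq_zero_or_pos t with rfl | htpos
      · rw [pow_zero] at hpt ⊢
        rw [pow_one] at hpt
        rw [hpt, orderOf_one]
      · obtain ⟨s', rfl⟩ : ∃ s, t = s + 1 := ⟨t - 1, by omega⟩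
        apply orderOf_eq_prime_pow
        · rw [hpow]
          intro h
          have h1 : ((a + σ a) ^ (p ^ s')) • (ε ^ (p ^ s') * ((v⁻¹ : Eˣ) : E) ^ (p ^ s')) = 0 := by
            simpa using h
          have h2 := (smul_eq_zero.mp h1).resolve_left (pow_ne_zero _ ha)
          have hun : IsUnit (((v⁻¹ : Eˣ) : E) ^ p ^ s') := (Units.isUnit _).pow _
          rw [hun.mul_left_eq_zero, hε] at h2
          have := ht' s' (by omega)
          omega
        · exact hpt
    rw [← hord]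
    exact orderOf_dvd_of_pow_eq_one hc1

end Algebras

end CfsgLib.SU27
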