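import Cfsg.Agent.LibUAlg27
import Cfsg.Agent.LibSpecLin27b

set_option autoImplicit false

/-! Elements of `SU_n(q)` without nontrivial commuting Hermitian idempotent. -/

namespace CfsgLib.SU27

open Polynomial

theorem roots_reverse {K : Type*} [Field K] (s : Multiset K) (hs : (0 : K) ∉ s) :
    ((s.map (fun a => X - C a)).prod).reverse.roots = s.map (fun a => a⁻¹) := by
  induction s using Multiset.induction_on with
  | empty =>
    rw [Multiset.map_zero, Multiset.prod_zero, Multiset.map_zero]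
    have : (1 : K[X]).reverse = 1 := by simpa using Polynomial.reverse_C (1 : K)
    rw [this, Polynomial.roots_one]
    rfl
  | cons a s ih =>
    have ha : a ≠ 0 := fun h => hs (by rw [h]; exact Multiset.mem_cons_self _ _)
    have hs' : (0 : K) ∉ s := fun h => hs (Multiset.mem_cons_of_mem h)
    rw [Multiset.map_cons, Multiset.prod_cons, Polynomial.reverse_mul_of_domain, Multiset.map_cons]
    have h1 : (X - C a : K[X]).reverse = C (-a) * (X - C a⁻¹) := by
      unfold Polynomial.reverse
      rw [Polynomial.natDegree_X_sub_C, Polynomial.reflect_sub, Polynomial.reflect_one_X, Polynomial.reflect_C, pow_one,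
        mul_sub, ← C_mul, neg_mul, mul_inv_cancel₀ ha, C_neg, C_neg, C_1]
      ring
    have h2 : ((s.map (fun a => X - C a)).prod).reverse ≠ 0 := by
      rw [Ne, Polynomial.reverse_eq_zero]
      apply Multiset.prod_ne_zero
      intro h
      rw [Multiset.mem_map] at h
      obtain ⟨b, -, hb⟩ := h
      exact Polynomial.X_sub_C_ne_zero b hb
    have h3 : C (-a) * (X - C a⁻¹) ≠ 0 :=
      mul_ne_zero (Polynomial.C_ne_zero.mpr (neg_ne_zero.mpr ha)) (Polynomial.X_sub_C_ne_zero _)
    rw [h1, Polynomial.roots_mul (mul_ne_zero h3 h2), Polynomial.roots_C_mul _ (neg_ne_zero.mpr ha),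
      Polynomial.roots_X_sub_C, ih hs']
    rfl

/-- Conjugate elements over a finite field are related by Frobenius. -/
theorem frob_conj {F : Type*} [Field F] [Fintype F] {Ω : Type*} [Field Ω] [Algebra F Ω] [Algebra.IsAlgebraic F Ω]
    (x y : Ω) (h : aeval y (minpoly F x) = 0) : ∃ i : ℕ, y = x ^ (Fintype.card F ^ i) := by
  let L : IntermediateField F Ω := IntermediateField.adjoin F {x, y}
  haveI : FiniteDimensional F L := by
    apply IntermediateField.finiteDimensional_adjoin
    intro z _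
    exact Algebra.IsIntegral.isIntegral z
  haveI : Finite L := Module.finite_of_finite F
  let x' : L := ⟨x, IntermediateField.subset_adjoin _ _ (by simp)⟩
  let y' : L := ⟨y, IntermediateField.subset_adjoin _ _ (by simp)⟩
  have hx : minpoly F x' = minpoly F x := (minpoly.algebraMap_eq (algebraMap L Ω).injective x').symm
  have h' : aeval y' (minpoly F x') = 0 := by
    apply (algebraMap L Ω).injective
    rw [map_zero, ← Polynomial.aeval_algebraMap_apply, hx]
    exact h
  obtain ⟨τ, hτ⟩ := minpoly.exists_algEquiv_of_root' (Algebra.IsAlgebraic.isAlgebraic x') h'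
  obtain ⟨i, hi⟩ := (FiniteField.bijective_frobeniusAlgEquivOfAlgebraic_pow F L).2 τ
  refine ⟨i, ?_⟩
  have h1 : y' = x' ^ (Fintype.card F ^ (i : ℕ)) := by
    rw [← hτ, ← hi]
    show ((FiniteField.frobeniusAlgEquivOfAlgebraic F L) ^ (i : ℕ)) x' = _
    rw [AlgEquiv.coe_pow, FiniteField.coe_frobeniusAlgEquivOfAlgebraic_iterate]
  exact congrArg Subtype.val h1

theorem periodic_of_map {M : Type*} (ψ : M → M) (hψ : Function.Injective ψ) (R : Multiset M) (hR : R.map ψ = R)
    (x : M) (hx : x ∈ R) : ∃ e : ℕ, 0 < e ∧ ψ^[e] x = x := by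
  have hmem : ∀ i : ℕ, ψ^[i] x ∈ R := by
    intro i
    induction i with
    | zero => exact hx
    | succ i ih =>
      rw [Function.iterate_succ_apply', ← hR]
      exact Multiset.mem_map_of_mem _ ih
  classical
  have hfin : Finite {y // y ∈ R.toFinset} := inferInstance
  obtain ⟨a, b, hab, heq⟩ := Finite.exists_ne_map_eq_of_infinite
    (fun i : ℕ => (⟨ψ^[i] x, Multiset.mem_toFinset.mpr (hmem i)⟩ : {y // y ∈ R.toFinset}))
  have heq' : ψ^[a] x = ψ^[b] x := congrArg Subtype.val heq
  rcases lt_or_gt_of_ne hab with h | h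
  · refine ⟨b - a, by omega, ?_⟩
    apply hψ.iterate a
    rw [← Function.iterate_add_apply, Nat.add_sub_cancel' h.le, heq']
  · refine ⟨a - b, by omega, ?_⟩
    apply hψ.iterate b
    rw [← Function.iterate_add_apply, Nat.add_sub_cancel' h.le, heq']

theorem prod_orbit {M : Type*} [CommMonoid M] (ψ : M → M) (hψ : Function.Injective ψ) (R : Multiset M)
    (hR : R.map ψ = R) (x : M) (hx : x ∈ R) (hall : ∀ y ∈ R, ∃ i : ℕ, y = ψ^[i] x) :
    R.prod = ∏ i ∈ Finset.range (Multiset.card R), ψ^[i] x := by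
  classical
  have hcount : ∀ y, R.count (ψ y) = R.count y := by
    intro y
    conv_lhs => rw [← hR]
    exact Multiset.count_map_eq_count' ψ R hψ y
  have hcount' : ∀ i : ℕ, R.count (ψ^[i] x) = R.count x := by
    intro i
    induction i with
    | zero => rfl
    | succ i ih => rw [Function.iterate_succ_apply', hcount, ih]
  have hmem : ∀ i : ℕ, ψ^[i] x ∈ R := by
    intro i
    rw [← Multiset.count_pos, hcount', Multiset.count_pos]
    exact hx
  obtain ⟨e', he', hper⟩ := periodic_of_map ψ hψ R hR x hx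
  have hpp : Function.IsPeriodicPt ψ e' x := hper
  set e := Function.minimalPeriod ψ x with he
  have hepos : 0 < e := hpp.minimalPeriod_pos he'
  have heper : ψ^[e] x = x := Function.iterate_minimalPeriod
  let S : Multiset M := (Multiset.range e).map (fun i => ψ^[i] x)
  have hS : S.Nodup := by
    apply Multiset.Nodup.map_on _ (Multiset.nodup_range e)
    intro a ha b hb hab
    rw [Multiset.mem_range] at ha hb
    exact Function.iterate_injOn_Iio_minimalPeriod ha hb hab
  set j := R.count x with hj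
  have hRS : R = j • S := by
    ext y
    rw [Multiset.count_nsmul]
    by_cases hy : y ∈ R
    · obtain ⟨i, rfl⟩ := hall y hy
      have hi : ψ^[i] x ∈ S := by
        rw [Multiset.mem_map]
        exact ⟨i % e, Multiset.mem_range.mpr (Nat.mod_lt _ hepos), Function.iterate_mod_minimalPeriod_eq⟩
      rw [hcount', Multiset.count_eq_one_of_mem hS hi, mul_one]
    · have hy' : y ∉ S := by
        intro h
        rw [Multiset.mem_map] at h
        obtain ⟨i, -, rfl⟩ := h
        exact hy (hmem i)
      rw [Multiset.count_eq_zero_of_notMem hy, Multiset.count_eq_zero_of_notMem hy', mul_zero]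
  have hcard : Multiset.card R = j * e := by
    rw [hRS, Multiset.card_nsmul, Multiset.card_map, Multiset.card_range]
  have hprodS : S.prod = ∏ i ∈ Finset.range e, ψ^[i] x := rfl
  have hprod : ∀ j : ℕ, (∏ i ∈ Finset.range e, ψ^[i] x) ^ j = ∏ i ∈ Finset.range (j * e), ψ^[i] x := by
    intro j
    induction j with
    | zero => simp
    | succ j ih =>
      rw [pow_succ, ih, add_mul, one_mul, Finset.prod_range_add]
      congr 1
      refine Finset.prod_congr rfl fun i _ => ?_
      rw [add_comm, Function.iterate_add_apply]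
      congr 1
      have : ∀ j : ℕ, ψ^[j * e] x = x := by
        intro j
        induction j with
        | zero => rw [zero_mul]; rfl
        | succ j ih => rw [add_mul, one_mul, Function.iterate_add_apply, heper, ih]
      rw [this]
  rw [hcard, ← hprod, ← hprodS, ← Multiset.prod_nsmul, ← hRS]

theorem exists_idem_pow {M : Type*} [Monoid M] [Finite M] (x : M) : ∃ k : ℕ, 1 ≤ k ∧ x ^ k * x ^ k = x ^ k := by
  obtain ⟨a, b, hab, heq⟩ := Finite.exists_ne_map_eq_of_infinite (fun i : ℕ => x ^ i)
  obtain ⟨a, d, hd, h⟩ : ∃ a d : ℕ, 1 ≤ d ∧ x ^ (a + d) = x ^ a := by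
    rcases lt_or_gt_of_ne hab with h | h
    · exact ⟨a, b - a, by omega, by rw [Nat.add_sub_cancel' h.le]; exact heq.symm⟩
    · exact ⟨b, a - b, by omega, by rw [Nat.add_sub_cancel' h.le]; exact heq⟩
  have h1 : ∀ i, a ≤ i → x ^ (i + d) = x ^ i := by
    intro i hi
    obtain ⟨c, rfl⟩ := Nat.exists_eq_add_of_le hi
    rw [show a + c + d = (a + d) + c by ring, pow_add, h, ← pow_add]
  have h2 : ∀ j i, a ≤ i → x ^ (i + j * d) = x ^ i := by
    intro j
    induction j with
    | zero => intro i _; rw [zero_mul, add_zero]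
    | succ j ih =>
      intro i hi
      rw [add_mul, one_mul, ← add_assoc, h1 _ (by omega), ih i hi]
  refine ⟨(a + 1) * d, Nat.mul_pos (by omega) (by omega), ?_⟩
  rw [← pow_add]
  apply h2
  calc a ≤ (a + 1) * 1 := by omega
    _ ≤ (a + 1) * d := Nat.mul_le_mul_left _ hd

variable {F : Type*} [Field F] {σ : F →+* F}

theorem primary_analysis [Fintype F] (p : ℕ) [Fact p.Prime] [CharP F p] {q : ℕ} (hF : Fintype.card F = q ^ 2)
    (hσ : ∀ x, σ x = x ^ q) (hσ2 : ∀ x, σ (σ x) = x) {n : ℕ} (hn : 1 ≤ n) (A : Matrix (Fin n) (Fin n) F)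
    (hA : adj σ A * A = 1) (hdet : A.det = 1) (K : ℕ) (hK : 1 ≤ K) (hAK : A ^ K = 1) (N : ℕ)
    (hN : (Odd n ∧ N * (q + 1) = q ^ n + 1) ∨ (Even n ∧ N * (q + 1) + 1 = q ^ n)) :
    (∃ e : Matrix (Fin n) (Fin n) F, e * e = e ∧ e ≠ 0 ∧ e ≠ 1 ∧ adj σ e = e ∧ e * A = A * e) ∨
    (∀ m t : ℕ, n ≤ p ^ t → N ∣ m * (q + 1) → ∃ c : F, A ^ (m * p ^ t) = c • 1) := by
  classical
  have hq2 : 2 ≤ q := Cfsg.Agent.H22.two_le_of_card_sq hF
  let Ω := AlgebraicClosure F
  haveI : CharP Ω p := charP_of_injective_algebraMap (algebraMap F Ω).injective p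
  obtain ⟨c0, hqc⟩ : ∃ c, q = p ^ c := by
    obtain ⟨a, hp, ha⟩ := FiniteField.card F p
    rw [hF] at ha
    obtain ⟨c, -, hc⟩ := (Nat.dvd_prime_pow hp).1 (show q ∣ p ^ (a : ℕ) by rw [← ha]; exact dvd_pow_self q two_ne_zero)
    exact ⟨c, hc⟩
  let Φ : Ω →+* Ω := iterateFrobenius Ω p c0
  have hΦ : ∀ x, Φ x = x ^ q := fun x => by
    show iterateFrobenius Ω p c0 x = _
    rw [iterateFrobenius_def, hqc]
  let ψ : Ω → Ω := fun x => (x ^ q)⁻¹
  have hψ : ∀ x, ψ x = (x ^ q)⁻¹ := fun x => rfl
  have hψinj : Function.Injective ψ := by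
    intro x y hxy
    have h1 : x ^ q = y ^ q := inv_injective hxy
    rw [← hΦ, ← hΦ] at h1
    exact Φ.injective h1
  set χ := A.charpoly with hχ
  have hmon : χ.Monic := Matrix.charpoly_monic A
  have hmonΩ : (χ.map (algebraMap F Ω)).Monic := hmon.map _
  have hsplit : (χ.map (algebraMap F Ω)).Splits := IsAlgClosed.splits _
  set R := (χ.map (algebraMap F Ω)).roots with hRdef
  have hcardR : Multiset.card R = n := by
    have h1 : (χ.map (algebraMap F Ω)).natDegree = n := by
      rw [Polynomial.natDegree_map, hχ, Matrix.charpoly_natDegree_eq_dim, Fintype.card_fin]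
    rw [← h1]
    exact hsplit.natDegree_eq_card_roots.symm
  have hcpΩ : (A.map (algebraMap F Ω)).charpoly = χ.map (algebraMap F Ω) := Matrix.charpoly_map A (algebraMap F Ω)
  have hprodR : R.prod = 1 := by
    have h1 := Matrix.det_eq_prod_roots_charpoly (A.map (algebraMap F Ω))
    rw [hcpΩ] at h1
    rw [hRdef, ← h1]
    have : (A.map (algebraMap F Ω)).det = algebraMap F Ω A.det := (RingHom.map_det (algebraMap F Ω) A).symm
    rw [this, hdet, map_one]
  have hR0 : (0 : Ω) ∉ R := by
    intro h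
    have := Multiset.prod_eq_zero h
    rw [hprodR] at this
    exact one_ne_zero this
  -- the invariance of the spectrum
  have hRψ : R.map ψ = R := by
    have hAinv : A⁻¹ = adj σ A := Matrix.inv_eq_left_inv hA
    have hunit : IsUnit A := by
      rw [Matrix.isUnit_iff_isUnit_det, hdet]; exact isUnit_one
    have h1 := Matrix.charpoly_inv A hunit
    rw [hAinv, charpoly_adj, ← Matrix.reverse_charpoly, hdet, ← hχ, Ring.inverse_one, C_1, mul_one] at h1
    have h2 := congrArg (fun P : F[X] => (P.map (algebraMap F Ω)).roots) h1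
    have h3 : (χ.map σ).map (algebraMap F Ω) = (χ.map (algebraMap F Ω)).map Φ := by
      rw [Polynomial.map_map, Polynomial.map_map]
      congr 1
      ext c
      rw [RingHom.comp_apply, RingHom.comp_apply, hΦ, hσ, map_pow]
    have h4 : ((-1) ^ Fintype.card (Fin n) * χ.reverse).map (algebraMap F Ω) =
        C ((-1) ^ n) * (χ.map (algebraMap F Ω)).reverse := by
      rw [Polynomial.map_mul, Polynomial.map_pow, Polynomial.map_neg, Polynomial.map_one, Fintype.card_fin, C_pow, C_neg,
        C_1]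
      congr 1
      unfold Polynomial.reverse
      rw [Polynomial.natDegree_map, Polynomial.reflect_map]
    rw [h3, h4, hsplit.roots_map Φ, Polynomial.roots_C_mul _ (pow_ne_zero _ (neg_ne_zero.mpr one_ne_zero))] at h2
    have h5 : (χ.map (algebraMap F Ω)).reverse.roots = R.map (fun a => a⁻¹) := by
      conv_lhs => rw [hsplit.eq_prod_roots_of_monic hmonΩ]
      exact roots_reverse R hR0
    rw [h5] at h2
    have h6 := congrArg (Multiset.map (fun a : Ω => a⁻¹)) h2
    rw [Multiset.map_map, Multiset.map_map] at h6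
    have h7 : ((fun a : Ω => a⁻¹) ∘ fun a => a⁻¹) = id := by ext a; simp
    rw [h7, Multiset.map_id] at h6
    have h8 : ((fun a : Ω => a⁻¹) ∘ ⇑Φ) = ψ := by
      ext a
      rw [Function.comp_apply, hΦ]
    rw [h8] at h6
    exact h6
  -- pick an eigenvalue
  obtain ⟨x, hx⟩ : ∃ x, x ∈ R := by
    apply Multiset.exists_mem_of_ne_zero
    intro h
    rw [h, Multiset.card_zero] at hcardR
    omega
  have hx0 : x ≠ 0 := fun h => hR0 (h ▸ hx)
  have hroot : ∀ y, y ∈ R ↔ aeval y χ = 0 := by
    intro y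
    rw [hRdef, Polynomial.mem_roots hmonΩ.ne_zero, Polynomial.IsRoot.def, Polynomial.eval_map_algebraMap]
  have hmin : ∀ y, y ∈ R → Irreducible (minpoly F y) ∧ minpoly F y ∣ χ := fun y hy =>
    ⟨minpoly.irreducible (Algebra.IsIntegral.isIntegral y), minpoly.dvd F y ((hroot y).1 hy)⟩
  have hkill : ∀ y, y ∈ R → ∀ P : F[X], aeval A P = 0 → aeval y P = 0 := by
    intro y hy P hP
    obtain ⟨Q, hQ⟩ := CfsgLib.SpecLin27.irreducible_factor_dvd A _ (hmin y hy).1 (hmin y hy).2 P hP
    rw [hQ, map_mul, minpoly.aeval, zero_mul]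
  have hRK : ∀ y, y ∈ R → y ^ K = 1 := by
    intro y hy
    have := hkill y hy (X ^ K - 1) (by rw [map_sub, map_pow, Polynomial.aeval_X, map_one, hAK, sub_self])
    rw [map_sub, map_pow, Polynomial.aeval_X, map_one] at this
    exact sub_eq_zero.mp this
  have hψ2 : ∀ (i : ℕ) (y : Ω), y ^ (Fintype.card F ^ i) = ψ^[2 * i] y := by
    intro i
    induction i with
    | zero => intro y; simp
    | succ i ih =>
      intro y
      rw [mul_add, mul_one, Function.iterate_add_apply, ← ih]
      show _ = (ψ (ψ y)) ^ _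
      rw [hψ, hψ, inv_pow (y ^ q) q, inv_inv, ← pow_mul, ← pow_mul, hF]
      congr 1
      ring
  obtain ⟨e0, he0, hper⟩ := periodic_of_map ψ hψinj R hRψ x hx
  -- the Hermitian element
  set g := minpoly F x with hg
  have hgi := (hmin x hx).1
  let h : F[X] := (g.map σ).comp (X ^ (K - 1))
  have hAinv' : A ^ (K - 1) = adj σ A := by
    have h1 : A * A ^ (K - 1) = 1 := by rw [← pow_succ', Nat.sub_add_cancel hK, hAK]
    calc A ^ (K - 1) = (adj σ A * A) * A ^ (K - 1) := by rw [hA, one_mul]
      _ = adj σ A := by rw [mul_assoc, h1, mul_one]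
  have hAh : aeval A h = adj σ (aeval A g) := by
    rw [adj_aeval, ← hAinv']
    show aeval A ((g.map σ).comp (X ^ (K - 1))) = _
    rw [Polynomial.aeval_comp, map_pow, Polynomial.aeval_X]
  have hgh : aeval A (g * h) = aeval A g * adj σ (aeval A g) := by rw [map_mul, hAh]
  obtain ⟨k, hk, hidem⟩ := exists_idem_pow (aeval A (g * h))
  have hself : adj σ (aeval A (g * h) ^ k) = aeval A (g * h) ^ k := by
    rw [adj_pow, hgh, adj_mul, adj_adj σ hσ2]
  by_cases he1 : aeval A (g * h) ^ k = 1
  · exfalso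
    have h1 : g ∣ (g * h) ^ k - 1 := by
      apply CfsgLib.SpecLin27.irreducible_factor_dvd A _ hgi (hmin x hx).2
      rw [map_sub, map_pow, he1, map_one, sub_self]
    have h2 : g ∣ (g * h) ^ k := (dvd_mul_right g h).trans (dvd_pow_self _ (by omega))
    have h3 : g ∣ 1 := by
      have := dvd_sub h2 h1
      rwa [sub_sub_cancel] at this
    exact hgi.not_isUnit (isUnit_of_dvd_one h3)
  by_cases he0' : aeval A (g * h) ^ k = 0
  swap
  · left
    refine ⟨aeval A (g * h) ^ k, hidem, he0', he1, hself, ?_⟩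
    rw [← map_pow]
    exact (CfsgLib.SpecLin27.commute_aeval A _).eq
  right
  -- all eigenvalues in one orbit
  have horb : ∀ y ∈ R, ∃ i : ℕ, y = ψ^[i] x := by
    intro y hy
    have h1 := hkill y hy ((g * h) ^ k) (by rw [map_pow]; exact he0')
    rw [map_pow] at h1
    have h2 : aeval y (g * h) = 0 := pow_eq_zero_iff (by omega) |>.1 h1
    rw [map_mul] at h2
    rcases mul_eq_zero.mp h2 with h3 | h3
    · obtain ⟨i, hi⟩ := frob_conj x y h3
      exact ⟨2 * i, by rw [← hψ2, ← hi]⟩
    · have h4 : aeval y ((g.map σ).comp (X ^ (K - 1))) = 0 := h3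
      have hyK : y ^ (K - 1) = y⁻¹ := by
        apply eq_inv_of_mul_eq_one_left
        rw [← pow_succ, Nat.sub_add_cancel hK, hRK y hy]
      rw [Polynomial.aeval_comp, map_pow, Polynomial.aeval_X, hyK, Polynomial.aeval_def, Polynomial.eval₂_map] at h4
      have h5 := congrArg Φ h4
      rw [map_zero, Polynomial.hom_eval₂] at h5
      have h6 : Φ.comp ((algebraMap F Ω).comp σ) = algebraMap F Ω := by
        ext c
        rw [RingHom.comp_apply, RingHom.comp_apply, hΦ, ← map_pow, ← hσ, hσ2]
      have h7 : Φ y⁻¹ = ψ y := by rw [hΦ, inv_pow]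
      rw [h6, h7] at h5
      obtain ⟨i, hi⟩ := frob_conj x (ψ y) h5
      refine ⟨2 * i + (e0 - 1), ?_⟩
      apply hψinj
      rw [hi, hψ2, ← Function.iterate_succ_apply' ψ, show (2 * i + (e0 - 1)).succ = 2 * i + e0 by omega,
        Function.iterate_add_apply, hper]
  -- the determinant
  have hiter : ∀ i : ℕ, ψ^[i] x = x ^ ((-(q : ℤ)) ^ i) := by
    intro i
    induction i with
    | zero => simp
    | succ i ih =>
      rw [Function.iterate_succ_apply', ih, hψ, pow_succ, zpow_mul, zpow_neg, zpow_natCast]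
  have hprod : ∀ m : ℕ, ∏ i ∈ Finset.range m, ψ^[i] x = x ^ (∑ i ∈ Finset.range m, (-(q : ℤ)) ^ i) := by
    intro m
    induction m with
    | zero => simp
    | succ m ih => rw [Finset.prod_range_succ, ih, hiter, Finset.sum_range_succ, zpow_add₀ hx0]
  have hs1 : x ^ (∑ i ∈ Finset.range n, (-(q : ℤ)) ^ i) = 1 := by
    rw [← hprod, ← hcardR, ← prod_orbit ψ hψinj R hRψ x hx horb, hprodR]
  have hxN : x ^ N = 1 := by
    have h1 := geom_sum_mul (-(q : ℤ)) n
    rcases hN with ⟨hodd, hN⟩ | ⟨heven, hN⟩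
    · have h2 : (∑ i ∈ Finset.range n, (-(q : ℤ)) ^ i) = N := by
        have hN' : (N : ℤ) * (q + 1) = q ^ n + 1 := by exact_mod_cast hN
        rw [hodd.neg_pow] at h1
        have h3 : (∑ i ∈ Finset.range n, (-(q : ℤ)) ^ i) * ((q : ℤ) + 1) = N * ((q : ℤ) + 1) := by
          linear_combination -h1 - hN'
        exact mul_right_cancel₀ (by positivity) h3
      rw [h2, zpow_natCast] at hs1
      exact hs1
    · have h2 : (∑ i ∈ Finset.range n, (-(q : ℤ)) ^ i) = -N := by
        have hN' : (N : ℤ) * (q + 1) + 1 = q ^ n := by exact_mod_cast hN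
        rw [heven.neg_pow] at h1
        have h3 : (∑ i ∈ Finset.range n, (-(q : ℤ)) ^ i) * ((q : ℤ) + 1) = (-N) * ((q : ℤ) + 1) := by
          linear_combination -h1 + hN'
        exact mul_right_cancel₀ (by positivity) h3
      rw [h2, zpow_neg, zpow_natCast, inv_eq_one] at hs1
      exact hs1
  intro m t ht hm
  have hc1 : (x ^ m) ^ (q + 1) = 1 := by
    obtain ⟨r, hr⟩ := hm
    rw [← pow_mul, hr, pow_mul, hxN, one_pow]
  have hcψ : ψ (x ^ m) = x ^ m := by
    rw [hψ, inv_eq_iff_eq_inv]
    apply eq_inv_of_mul_eq_one_left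
    rw [← pow_succ]; exact hc1
  have hψpow : ∀ (i : ℕ) (y : Ω), ψ^[i] (y ^ m) = (ψ^[i] y) ^ m := by
    intro i
    induction i with
    | zero => intro y; rfl
    | succ i ih =>
      intro y
      rw [Function.iterate_succ_apply', ih, Function.iterate_succ_apply', hψ, hψ, inv_pow, ← pow_mul, ← pow_mul, mul_comm]
  have hfix : ∀ i : ℕ, ψ^[i] (x ^ m) = x ^ m := by
    intro i
    induction i with
    | zero => rfl
    | succ i ih => rw [Function.iterate_succ_apply', ih, hcψ]
  -- `x ^ m` lies in `F`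
  obtain ⟨a, ha⟩ : ∃ a : F, algebraMap F Ω a = x ^ m := by
    have h1 : (x ^ m) ^ (Fintype.card F) = x ^ m := by
      have := hψ2 1 (x ^ m)
      rw [pow_one] at this
      rw [this, hfix]
    have h2 : (X ^ Fintype.card F - X : F[X]).Splits := by
      rw [Polynomial.splits_iff_card_roots, FiniteField.roots_X_pow_card_sub_X,
        FiniteField.X_pow_card_sub_X_natDegree_eq F Fintype.one_lt_card]
      rfl
    have h3 : x ^ m ∈ ((X ^ Fintype.card F - X : F[X]).map (algebraMap F Ω)).roots := by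
      rw [Polynomial.mem_roots]
      · simp [h1]
      · rw [Polynomial.map_ne_zero_iff (algebraMap F Ω).injective]
        exact FiniteField.X_pow_card_sub_X_ne_zero F Fintype.one_lt_card
    rw [h2.roots_map, Multiset.mem_map] at h3
    obtain ⟨a, -, ha⟩ := h3
    exact ⟨a, ha⟩
  have hdvd : χ ∣ (X ^ m - C a) ^ n := by
    apply CfsgLib.SpecLin27.dvd_pow_of_irreducible_dvd _ _ _ hmon.ne_zero
    · rw [hχ, Matrix.charpoly_natDegree_eq_dim, Fintype.card_fin]
    · intro f hf hfχ
      obtain ⟨y, hy⟩ := IsAlgClosed.exists_aeval_eq_zero Ω f (by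
        rw [Polynomial.degree_eq_natDegree hf.ne_zero]
        have := hf.natDegree_pos
        intro h
        have : f.natDegree = 0 := by exact_mod_cast h
        omega)
      have hyR : y ∈ R := by
        rw [hroot]
        obtain ⟨Q, hQ⟩ := hfχ
        rw [hQ, map_mul, hy, zero_mul]
      have h1 : Associated f (minpoly F y) :=
        (minpoly.irreducible (Algebra.IsIntegral.isIntegral y)).associated_of_dvd hf (minpoly.dvd F y hy) |>.symm
      refine h1.dvd.trans (minpoly.dvd F y ?_)
      obtain ⟨i, hi⟩ := horb y hyR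
      rw [map_sub, map_pow, Polynomial.aeval_X, Polynomial.aeval_C, ha, hi, ← hψpow, hfix, sub_self]
  obtain ⟨Q, hQ⟩ := hdvd
  have h1 := congrArg (aeval A) hQ
  rw [map_mul, hχ, Matrix.aeval_self_charpoly, zero_mul, map_pow, map_sub, map_pow, Polynomial.aeval_X,
    Polynomial.aeval_C] at h1
  haveI : Nonempty (Fin n) := ⟨⟨0, hn⟩⟩
  have h2 : (A ^ m - algebraMap F (Matrix (Fin n) (Fin n) F) a) ^ (p ^ t) = 0 := pow_eq_zero_of_le ht h1
  rw [sub_pow_char_pow_of_commute _ _ (Algebra.commute_algebraMap_right a (A ^ m))] at h2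
  refine ⟨a ^ (p ^ t), ?_⟩
  rw [pow_mul, sub_eq_zero.mp h2, ← map_pow, Algebra.algebraMap_eq_smul_one]

end CfsgLib.SU27
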