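import Cfsg.Agent.LibUS8b

/-! No `S₃` acts on the Sylow `2`-subgroup of `U₃(4)` (helper8). -/

set_option autoImplicit false

namespace CfsgLib.US8

open Subgroup Cfsg

variable {F : Type*} [Field F] {D : Dat F}

theorem card_norm_one [Finite F] {q : ℕ} (hF : Nat.card F = q ^ 2) : Nat.card {a : F // a * D.s a = 1} = q + 1 := by
  classical
  haveI : Fintype F := Fintype.ofFinite F
  haveI : CharP F 2 := CharTwo.of_one_ne_zero_of_two_eq_zero one_ne_zero D.two
  have hFx : Nat.card (Fx D) = q := (card_UU hF).1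
  let N : Fˣ →* Fˣ :=
    { toFun := fun u => u * (Units.map (D.s : F →* F) u)
      map_one' := by simp
      map_mul' := fun u v => by simp only [map_mul]; exact mul_mul_mul_comm _ _ _ _ }
  have hNv : ∀ u : Fˣ, ((N u : Fˣ) : F) = u * D.s u := fun u => rfl
  have h1 : Nat.card N.ker = Nat.card {a : F // a * D.s a = 1} := by
    apply Nat.card_congr
    refine ⟨fun u => ⟨u.1, ?_⟩, fun a => ⟨Units.mk0 a.1 (fun h => ?_), ?_⟩, ?_, ?_⟩
    · rw [← hNv, MonoidHom.mem_ker.1 u.2]; rfl
    · have := a.2; rw [h, zero_mul] at this; exact zero_ne_one this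
    · rw [MonoidHom.mem_ker]; apply Units.ext; rw [hNv]; exact a.2
    · intro u; apply Subtype.ext; apply Units.ext; rfl
    · intro a; rfl
  have h2 : Nat.card N.range + 1 = q := by
    rw [← hFx]
    have h3 : Nat.card N.range = Nat.card {t : Fx D // t ≠ 0} := by
      apply Nat.card_congr
      refine ⟨fun u => ⟨⟨(u.1 : F), ?_⟩, ?_⟩, fun t => ⟨Units.mk0 (t.1 : F) (fun h => t.2 (Subtype.ext h)), ?_⟩, ?_, ?_⟩
      · obtain ⟨v, hv⟩ := u.2
        rw [← hv, hNv]; exact D.nm_fix _
      · intro h; exact u.1.ne_zero (congrArg Subtype.val h)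
      · obtain ⟨l, hl⟩ := (frobeniusEquiv F 2).surjective (t.1 : F)
        have hl2 : l ^ 2 = (t.1 : F) := hl
        have hl0 : l ≠ 0 := by
          rintro rfl
          rw [zero_pow (by norm_num)] at hl2
          exact t.2 (Subtype.ext hl2.symm)
        have hls : D.s l = l := by
          apply (frobeniusEquiv F 2).injective
          show (D.s l) ^ 2 = l ^ 2
          rw [← map_pow, hl2]; exact t.1.2
        refine ⟨Units.mk0 l hl0, Units.ext ?_⟩
        rw [hNv]
        show l * D.s l = t.1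
        rw [hls, ← hl2]; ring
      · intro u; apply Subtype.ext; apply Units.ext; rfl
      · intro t; rfl
    rw [h3]
    have h4 := Nat.card_eq_fintype_card (α := {t : Fx D // t ≠ 0})
    rw [h4, Fintype.card_subtype_compl, Fintype.card_subtype_eq, Nat.card_eq_fintype_card]
    have : 0 < Fintype.card (Fx D) := Fintype.card_pos
    omega
  have h5 := N.ker.card_mul_index
  rw [Subgroup.index_ker] at h5
  have h6 : Nat.card Fˣ + 1 = q ^ 2 := by
    rw [← hF, Nat.card_eq_fintype_card, Nat.card_eq_fintype_card, Fintype.card_units]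
    have : 0 < Fintype.card F := Fintype.card_pos
    omega
  rw [← h1]
  obtain ⟨r, hr⟩ : ∃ r, r = Nat.card N.range := ⟨_, rfl⟩
  rw [← hr] at h2 h5
  have h7 : Nat.card N.ker * r = (r + 2) * r := by
    have : Nat.card N.ker * r + 1 = (r + 1) ^ 2 := by rw [h5, h6, h2]
    have h8 : (r + 1) ^ 2 = (r + 2) * r + 1 := by ring
    omega
  have hr0 : 0 < r := by rw [hr]; exact Nat.card_pos
  have h9 := Nat.eq_of_mul_eq_mul_right hr0 h7
  omega

theorem cube_trivial [Finite F] {q : ℕ} (hF : Nat.card F = q ^ 2) (hq : q % 3 = 1) (ρ : MulAut (UU D)) (h3 : ρ ^ 3 = 1) (hz : ∀ t, ρ (zz t) = zz t) : ρ = 1 := by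
  classical
  haveI : Fintype F := Fintype.ofFinite F
  obtain ⟨α, hα⟩ := exists_alpha ρ
  have h3' : ∀ p, ρ (ρ (ρ p)) = p := by
    intro p
    have : (ρ ^ 3) p = p := by rw [h3]; rfl
    exact this
  have hα3 : ∀ a, α (α (α a)) = a := by
    intro a
    obtain ⟨p, hp⟩ := exists_lift (D := D) a
    rw [← hp, ← hα, ← hα, ← hα, h3']
  have hN : ∀ a : F, α a * D.s (α a) = a * D.s a := by
    intro a
    obtain ⟨p, hp⟩ := exists_lift (D := D) a
    subst hp
    have h2 := congrArg ρ (sq p)
    rw [map_mul, sq, hz] at h2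
    have h3 := congrArg UU.t h2
    rw [zz_t, zz_t] at h3
    rw [← hα]; exact h3
  have hB : ∀ a b : F, D.s (α a) * α b + α a * D.s (α b) = D.s a * b + a * D.s b := by
    intro a b
    have h1 := hN (a + b)
    rw [map_add, map_add, map_add] at h1
    linear_combination h1 - hN a - hN b
  -- fixed points of norm one
  let S1 := {a : F // a * D.s a = 1}
  let f : Equiv.Perm S1 :=
    { toFun := fun a => ⟨α a, by rw [hN]; exact a.2⟩
      invFun := fun a => ⟨α (α a), by rw [hN, hN]; exact a.2⟩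
      left_inv := fun a => Subtype.ext (hα3 a)
      right_inv := fun a => Subtype.ext (hα3 a) }
  have hf : f ^ 3 ^ 1 = 1 := by
    apply Equiv.ext
    intro a
    exact Subtype.ext (hα3 a)
  haveI : Fact (Nat.Prime 3) := ⟨Nat.prime_three⟩
  have hcS : Fintype.card S1 = q + 1 := by
    rw [← Nat.card_eq_fintype_card]; exact card_norm_one hF
  obtain ⟨u, w, hu1, hw1, hu, hw, huw⟩ : ∃ u w : F, u * D.s u = 1 ∧ w * D.s w = 1 ∧ α u = u ∧ α w = w ∧ u ≠ w := by
    have h5 := Equiv.Perm.card_compl_support_modEq (n := 1) hf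
    have h6 : 1 < (f.supportᶜ).card := by
      rw [hcS] at h5
      have h7 : (f.supportᶜ).card % 3 = 2 := by
        have : (f.supportᶜ).card % 3 = (q + 1) % 3 := h5
        omega
      omega
    obtain ⟨a, ha, b, hb, hab⟩ := Finset.one_lt_card.1 h6
    rw [Finset.mem_compl, Equiv.Perm.notMem_support] at ha hb
    exact ⟨a, b, a.2, b.2, congrArg Subtype.val ha, congrArg Subtype.val hb, fun h => hab (Subtype.ext h)⟩
  have hu0 : u ≠ 0 := by rintro rfl; rw [zero_mul] at hu1; exact zero_ne_one hu1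
  have hsu0 : D.s u ≠ 0 := fun h => hu0 ((map_eq_zero D.s).1 h)
  have hw0 : w ≠ 0 := by rintro rfl; rw [zero_mul] at hw1; exact zero_ne_one hw1
  have hsw0 : D.s w ≠ 0 := fun h => hw0 ((map_eq_zero D.s).1 h)
  have hα1 : ∀ v, α v = v := by
    intro v
    have h5 := hB u v
    have h6 := hB w v
    rw [hu] at h5
    rw [hw] at h6
    obtain ⟨x, hx⟩ : ∃ x, x = α v + v := ⟨_, rfl⟩
    have h7 : D.s u * x = u * D.s x := by
      rw [hx, map_add]
      linear_combination h5 + (D.s u * v - u * D.s (α v)) * D.two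
    have h8 : D.s w * x = w * D.s x := by
      rw [hx, map_add]
      linear_combination h6 + (D.s w * v - w * D.s (α v)) * D.two
    by_cases hx0 : x = 0
    · rw [hx] at hx0; exact D.eq_of_add hx0
    · exfalso
      have hsx0 : D.s x ≠ 0 := fun h => hx0 ((map_eq_zero D.s).1 h)
      -- u/w is fixed
      have h9 : D.s u * w = u * D.s w := by
        have h10 : (D.s u * w) * (x * D.s x) = (u * D.s w) * (x * D.s x) := by
          linear_combination (w * D.s x) * h7 - (u * D.s x) * h8
        exact mul_right_cancel₀ (mul_ne_zero hx0 hsx0) h10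
      have h11 : (u + w) ^ 2 = 0 := by
        have h12 : (u + w) ^ 2 * (D.s u * D.s w) = 0 := by
          linear_combination (u * D.s w) * hu1 + (w * D.s u) * hw1 + (u * w) * h9 * 0 + h9 + (u * D.s w) * D.two + (u * w * D.s u * D.s w) * D.two + ((u * D.s u - 1) * (u * D.s w)) * D.two * 0
        exact (mul_eq_zero.1 h12).resolve_right (mul_ne_zero hsu0 hsw0)
      exact huw (D.eq_of_add ((pow_eq_zero_iff (by norm_num)).1 h11))
  apply MulEquiv.ext
  intro p
  show ρ p = p
  have h5 : (p⁻¹ * ρ p).a = 0 := by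
    rw [mul_a, inv_a, hα, hα1, D.add_self]
  obtain ⟨z, hz'⟩ : ∃ z, z = zz ⟨_, t_mem h5⟩ := ⟨_, rfl⟩
  have h6 : ρ p = p * z := by rw [hz', ← eq_zz h5]; group
  have hρz : ρ z = z := by rw [hz']; exact hz _
  have hzz : z * z = 1 := by rw [hz']; exact (sq_one_iff _).2 rfl
  have e1 : ρ (ρ p) = p * z * z := by
    rw [h6, map_mul, hρz, h6]
  have h8 : p * z * z * z = p := by
    have e2 := h3' p
    rw [e1, map_mul, map_mul, hρz, h6] at e2
    exact e2
  rw [mul_assoc (p * z) z z, hzz, mul_one] at h8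
  rw [h6, h8]

theorem no_S3 [Finite F] (hF : Nat.card F = 4 ^ 2) {x y : MulAut (UU D)} (hx : x * x = 1) (hy : y * y = 1) (hxy : (x * y) ^ 3 = 1) : x * y = 1 := by
  have h1 : ∀ x : MulAut (UU D), x * x = 1 → ∀ t, x (zz t) = zz t := by
    intro x hx t
    apply fix_center hF
    intro p
    have : (x * x) p = p := by rw [hx]; rfl
    rw [MulAut.mul_apply] at this
    rw [this]
  apply cube_trivial hF (by norm_num) _ hxy
  intro t
  rw [MulAut.mul_apply, h1 y hy, h1 x hx]

theorem s3156 {T : Type*} [Group T] [Finite F] (hF : Nat.card F = 4 ^ 2) (e : T ≃* UU D) (H : Subgroup (MulAut T)) : ¬ Nonempty (↥H ≃* Equiv.Perm (Fin 3)) := by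
  rintro ⟨g⟩
  obtain ⟨a, b, ha, hb, hab, hne⟩ : ∃ a b : Equiv.Perm (Fin 3), a * a = 1 ∧ b * b = 1 ∧ (a * b) ^ 3 = 1 ∧ a * b ≠ 1 :=
    ⟨Equiv.swap 0 1, Equiv.swap 1 2, by decide, by decide, by decide, by decide⟩
  let φ : Equiv.Perm (Fin 3) →* MulAut (UU D) := ((MulAut.congr e).toMonoidHom.comp H.subtype).comp g.symm.toMonoidHom
  have hφ : Function.Injective φ := (MulAut.congr e).injective.comp (H.subtype_injective.comp g.symm.injective)
  have h1 := no_S3 hF (x := φ a) (y := φ b) (by rw [← map_mul, ha, map_one]) (by rw [← map_mul, hb, map_one])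
    (by rw [← map_mul, ← map_pow, hab, map_one])
  rw [← map_mul] at h1
  exact hne (hφ (h1.trans (map_one φ).symm))

end CfsgLib.US8
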