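import Cfsg.Agent.LibUS8b
import Cfsg.Agent.LibAutPSL27i
import Cfsg.Agent.LibCores

/-! The automorphism group of the Sylow `2`-subgroup of `SU(3,2^n)` (helper8). -/

set_option autoImplicit false

namespace CfsgLib.US8

open Subgroup Cfsg

variable {F : Type*} [Field F] {D : Dat F}

/-- every automorphism is semilinear on the first coordinate -/
theorem semilinear [Finite F] (τ : MulAut (UU D)) : ∃ (l : F) (θ : F ≃+* F), l ≠ 0 ∧ ∀ p : UU D, (τ p).a = l * θ p.a := by
  classical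
  haveI : CharP F 2 := CharTwo.of_one_ne_zero_of_two_eq_zero one_ne_zero D.two
  obtain ⟨α, hα⟩ := exists_alpha τ
  obtain ⟨β, hβ⟩ := exists_beta τ
  have hαi : ∀ a, α a = 0 → a = 0 := by
    intro a ha
    obtain ⟨p, hp⟩ := exists_lift (D := D) a
    rw [← hp, ← hα, ← sq_one_iff, ← map_mul] at ha
    have h1 : p * p = 1 := τ.injective (ha.trans (map_one τ).symm)
    rw [← hp]; exact (sq_one_iff p).1 h1
  have hβi : ∀ s t, β s = β t → s = t := by
    intro s t h
    apply zz_inj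
    apply τ.injective
    rw [hβ, hβ, h]
  have hβ0 : β 0 = 0 := by
    apply zz_inj
    rw [← hβ]
    have : (zz (0 : Fx D)) = 1 := rfl
    rw [this, map_one]
  have hN : ∀ a : F, α a * D.s (α a) = (β ⟨a * D.s a, D.nm_fix a⟩ : F) := by
    intro a
    obtain ⟨p, hp⟩ := exists_lift (D := D) a
    subst hp
    have h2 := congrArg τ (sq p)
    rw [map_mul, sq, hβ] at h2
    have h3 := congrArg UU.t h2
    rw [zz_t, zz_t] at h3
    rw [← hα]; exact h3
  have hBm : ∀ a b : F, D.s (D.s a * b + a * D.s b) = D.s a * b + a * D.s b := by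
    intro a b
    rw [map_add, map_mul, map_mul, D.inv, D.inv]; ring
  have hB : ∀ a b : F, D.s (α a) * α b + α a * D.s (α b) = (β ⟨D.s a * b + a * D.s b, hBm a b⟩ : F) := by
    intro a b
    obtain ⟨p, hp⟩ := exists_lift (D := D) a
    obtain ⟨r, hr⟩ := exists_lift (D := D) b
    subst hp hr
    have h2 := congrArg τ (comm_eq p r)
    rw [map_mul, map_mul, map_mul, hβ, comm_eq, ← hα, ← hα] at *
    have h3 := mul_left_cancel h2
    have h4 := congrArg UU.t h3
    rw [zz_t, zz_t] at h4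
    exact h4
  have hs0 : ∀ {u : F}, u ≠ 0 → D.s u ≠ 0 := fun h h' => h ((map_eq_zero D.s).1 h')
  have hα0 : ∀ {u : F}, u ≠ 0 → α u ≠ 0 := fun h h' => h (hαi _ h')
  -- lines
  have hline : ∀ u : F, u ≠ 0 → ∀ f, D.s f = f → D.s (α (u * f) / α u) = α (u * f) / α u := by
    intro u hu0 f hf
    have h3 := hB u (u * f)
    have h4 : (⟨D.s u * (u * f) + u * D.s (u * f), hBm _ _⟩ : Fx D) = 0 := by
      apply Subtype.ext
      show D.s u * (u * f) + u * D.s (u * f) = 0
      rw [map_mul, hf]; linear_combination (u * D.s u * f) * D.two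
    rw [h4, hβ0] at h3
    have h5 : D.s (α u) * α (u * f) = α u * D.s (α (u * f)) := D.eq_of_add h3
    rw [map_div₀, div_eq_div_iff (hs0 (hα0 hu0)) (hα0 hu0)]
    linear_combination -h5
  have hmulf : ∀ {f g : F}, D.s f = f → D.s g = g → D.s (f * g) = f * g := fun hf hg => by rw [map_mul, hf, hg]
  -- the multiplier on the fixed field
  have hone : ∀ u : F, u ≠ 0 → α (u * 1) / α u = 1 := by
    intro u hu0
    rw [mul_one, div_self (hα0 hu0)]
  have key : ∀ u w : F, u ≠ 0 → w ≠ 0 → D.s u * w + u * D.s w ≠ 0 →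
      (∀ f, D.s f = f → α (w * f) / α w = α (u * f) / α u) ∧
      (∀ f g, D.s f = f → D.s g = g → α (u * (f * g)) / α u = (α (u * f) / α u) * (α (u * g) / α u)) := by
    intro u w hu0 hw0 hc0
    obtain ⟨c, hc⟩ : ∃ c, c = D.s u * w + u * D.s w := ⟨_, rfl⟩
    have hcs : D.s c = c := by rw [hc]; exact hBm u w
    obtain ⟨c', hc'⟩ : ∃ c', c' = D.s (α u) * α w + α u * D.s (α w) := ⟨_, rfl⟩
    rw [← hc] at hc0
    have hc0' : c' ≠ 0 := by
      intro h
      rw [hc', hB] at h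
      have h1 : β ⟨D.s u * w + u * D.s w, hBm u w⟩ = β 0 := by rw [hβ0]; exact Subtype.ext h
      exact hc0 (hc.trans (congrArg Subtype.val (hβi _ _ h1)))
    have hcff : ∀ f g (hf : D.s f = f) (hg : D.s g = g),
        (β ⟨c * (f * g), hmulf hcs (hmulf hf hg)⟩ : F) = c' * ((α (u * f) / α u) * (α (w * g) / α w)) := by
      intro f g hf hg
      have h3 := hB (u * f) (w * g)
      have h4 : (⟨D.s (u * f) * (w * g) + (u * f) * D.s (w * g), hBm _ _⟩ : Fx D) = ⟨c * (f * g), hmulf hcs (hmulf hf hg)⟩ := by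
        apply Subtype.ext
        show D.s (u * f) * (w * g) + (u * f) * D.s (w * g) = c * (f * g)
        rw [map_mul, map_mul, hf, hg, hc]; ring
      rw [h4] at h3
      rw [← h3]
      have h5 := hline u hu0 f hf
      have h6 := hline w hw0 g hg
      obtain ⟨x, hx⟩ : ∃ x, x = α (u * f) / α u := ⟨_, rfl⟩
      obtain ⟨y, hy⟩ : ∃ y, y = α (w * g) / α w := ⟨_, rfl⟩
      rw [← hx] at h5 ⊢
      rw [← hy] at h6 ⊢
      have hx' : α (u * f) = α u * x := by rw [hx, mul_div_cancel₀ _ (hα0 hu0)]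
      have hy' : α (w * g) = α w * y := by rw [hy, mul_div_cancel₀ _ (hα0 hw0)]
      rw [hx', hy', map_mul, map_mul, h5, h6, hc']; ring
    have hcf : ∀ f (hf : D.s f = f), (β ⟨c * f, hmulf hcs hf⟩ : F) = c' * (α (u * f) / α u) := by
      intro f hf
      have h3 := hcff f 1 hf (map_one _)
      have h4 : (⟨c * f, hmulf hcs hf⟩ : Fx D) = ⟨c * (f * 1), hmulf hcs (hmulf hf (map_one _))⟩ := Subtype.ext (by show c * f = c * (f * 1); rw [mul_one])
      rw [h4, h3, hone w hw0, mul_one]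
    have hcg : ∀ f (hf : D.s f = f), (β ⟨c * f, hmulf hcs hf⟩ : F) = c' * (α (w * f) / α w) := by
      intro f hf
      have h3 := hcff 1 f (map_one _) hf
      have h4 : (⟨c * f, hmulf hcs hf⟩ : Fx D) = ⟨c * (1 * f), hmulf hcs (hmulf (map_one _) hf)⟩ := Subtype.ext (by show c * f = c * (1 * f); rw [one_mul])
      rw [h4, h3, hone u hu0, one_mul]
    have hgh : ∀ f (hf : D.s f = f), α (w * f) / α w = α (u * f) / α u := by
      intro f hf
      have h3 := hcf f hf
      rw [hcg f hf] at h3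
      exact mul_left_cancel₀ hc0' h3
    refine ⟨hgh, fun f g hf hg => ?_⟩
    apply mul_left_cancel₀ hc0'
    rw [← hcf _ (hmulf hf hg), hcff _ _ hf hg, hgh _ hg]
  -- normalise
  obtain ⟨l, hl⟩ : ∃ l, l = α 1 := ⟨_, rfl⟩
  have hl0 : l ≠ 0 := by rw [hl]; exact hα0 one_ne_zero
  let θ : F →+ F := { toFun := fun a => α a / l, map_zero' := by rw [map_zero, zero_div], map_add' := fun a b => by rw [map_add, add_div] }
  have hθ : ∀ a, θ a = α a / l := fun a => rfl
  have hθα : ∀ a, α a = l * θ a := fun a => by rw [hθ, mul_div_cancel₀ _ hl0]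
  have hθ1 : θ 1 = 1 := by rw [hθ, ← hl, div_self hl0]
  obtain ⟨w, hw⟩ := D.ex
  have hw0 : w ≠ 0 := by rintro rfl; exact hw (map_zero _)
  have hB1 : ∀ a : F, D.s a ≠ a → D.s 1 * a + 1 * D.s a ≠ 0 := by
    intro a ha h
    rw [map_one, one_mul, one_mul] at h
    exact ha (D.eq_of_add h).symm
  have hk := key 1 w one_ne_zero hw0 (hB1 w hw)
  have hg : ∀ f, D.s f = f → α (1 * f) / α 1 = θ f := by
    intro f _
    rw [one_mul, ← hl]; rfl
  have hθfix : ∀ f, D.s f = f → D.s (θ f) = θ f := by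
    intro f hf
    rw [← hg f hf]; exact hline 1 one_ne_zero f hf
  have hθmulf : ∀ f g, D.s f = f → D.s g = g → θ (f * g) = θ f * θ g := by
    intro f g hf hg'
    have := hk.2 f g hf hg'
    rw [hg _ (hmulf hf hg'), hg _ hf, hg _ hg'] at this
    exact this
  have hsemi : ∀ f a, D.s f = f → θ (f * a) = θ f * θ a := by
    intro f a hf
    by_cases ha : D.s a = a
    · exact hθmulf f a hf ha
    · have ha0 : a ≠ 0 := by rintro rfl; exact ha (map_zero _)
      have h1 := (key 1 a one_ne_zero ha0 (hB1 a ha)).1 f hf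
      rw [hg f hf, div_eq_iff (hα0 ha0), hθα, hθα a] at h1
      apply mul_left_cancel₀ hl0
      rw [mul_comm f a, h1]; ring
  -- trace and norm
  have hls : l * D.s l ≠ 0 := mul_ne_zero hl0 (hs0 hl0)
  have hNβ : ∀ a, (l * D.s l) * (θ a * D.s (θ a)) = (β ⟨a * D.s a, D.nm_fix a⟩ : F) := by
    intro a
    rw [← hN, hθα, map_mul]; ring
  have hsqf : ∀ x, D.s x = x → ∃ f, D.s f = f ∧ f ^ 2 = x := by
    intro x hx
    obtain ⟨f, hf⟩ := (frobeniusEquiv F 2).surjective x
    have hf2 : f ^ 2 = x := hf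
    refine ⟨f, ?_, hf2⟩
    apply (frobeniusEquiv F 2).injective
    show (D.s f) ^ 2 = f ^ 2
    rw [← map_pow, hf2, hx]
  have hβθ : ∀ x (hx : D.s x = x), (l * D.s l) * θ x = (β ⟨x, hx⟩ : F) := by
    intro x hx
    obtain ⟨f, hf, hfx⟩ := hsqf x hx
    have h1 := hNβ f
    rw [hθfix f hf, ← hθmulf f f hf hf] at h1
    have h2 : (⟨f * D.s f, D.nm_fix f⟩ : Fx D) = ⟨x, hx⟩ := Subtype.ext (by show f * D.s f = x; rw [hf, ← hfx]; ring)
    rw [h2] at h1
    rw [← h1, ← hfx, pow_two]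
  have hθN : ∀ a, θ a * D.s (θ a) = θ (a * D.s a) := by
    intro a
    apply mul_left_cancel₀ hls
    rw [hNβ, hβθ _ (D.nm_fix a)]
  have hθT : ∀ a, θ a + D.s (θ a) = θ (a + D.s a) := by
    intro a
    have h1 := hθN (1 + a)
    rw [map_add, map_add, map_add, hθ1, map_one] at h1
    have h2 : (1 + a) * (1 + D.s a) = 1 + (a + D.s a) + a * D.s a := by ring
    rw [h2, map_add, map_add, hθ1] at h1
    have h3 := hθN a
    linear_combination h1 - h3
  have hθw : θ (w * w) = θ w * θ w := by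
    have h1 : w * w = (w + D.s w) * w + w * D.s w := by linear_combination (-(w * D.s w)) * D.two
    have h2 : θ w * θ w = (θ w + D.s (θ w)) * θ w + θ w * D.s (θ w) := by linear_combination (-(θ w * D.s (θ w))) * D.two
    rw [h1, map_add, hsemi _ _ (D.tr_fix w), h2, hθT, hθN]
  have hdec : ∀ a : F, ∃ f g, D.s f = f ∧ D.s g = g ∧ a = f + g * w := by
    intro a
    have hne : w + D.s w ≠ 0 := fun h => hw (D.eq_of_add h).symm
    obtain ⟨g, hg⟩ : ∃ g, g = (a + D.s a) / (w + D.s w) := ⟨_, rfl⟩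
    have hgs : D.s g = g := by rw [hg, map_div₀, D.tr_fix, D.tr_fix]
    refine ⟨a + g * w, g, ?_, hgs, ?_⟩
    · rw [map_add, map_mul, hgs]
      have h1 : g * (w + D.s w) = a + D.s a := by rw [hg, div_mul_cancel₀ _ hne]
      linear_combination h1 + (D.s a - g * w) * D.two
    · linear_combination (-(g * w)) * D.two
  have hmul : ∀ a b, θ (a * b) = θ a * θ b := by
    intro a b
    obtain ⟨f, g, hf, hg, rfl⟩ := hdec a
    obtain ⟨f', g', hf', hg', rfl⟩ := hdec b
    have h1 : (f + g * w) * (f' + g' * w) = f * f' + (f * g') * w + (g * f') * w + (g * g') * (w * w) := by ring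
    rw [h1, map_add, map_add, map_add, hsemi _ _ (hmulf hf hg'), hsemi _ _ (hmulf hg hf'), hsemi _ _ (hmulf hg hg'), hθmulf _ _ hf hf',
      hθmulf _ _ hf hg', hθmulf _ _ hg hf', hθmulf _ _ hg hg', hθw, map_add, map_add, hsemi _ _ hg, hsemi _ _ hg']
    ring
  let θr : F →+* F := { θ with map_one' := hθ1, map_mul' := hmul }
  have hbij : Function.Bijective θr := Finite.injective_iff_bijective.1 θr.injective
  refine ⟨l, RingEquiv.ofBijective θr hbij, hl0, fun p => ?_⟩
  rw [hα]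
  exact hθα _

/-! ### the list of automorphisms -/

/-- the semilinear automorphism -/
def jj (hc : ∀ (θ : F ≃+* F) x, θ (D.s x) = D.s (θ x)) (l : Fˣ) (θ : F ≃+* F) : MulAut (UU D) where
  toFun p := ⟨l * θ p.a, l * D.s l * θ p.t, by
    rw [map_mul, D.nm_fix, map_mul, ← hc, ← hc]
    have := congrArg θ p.h
    rw [map_add, map_mul] at this
    linear_combination (l * D.s l) * this⟩
  invFun p := ⟨θ.symm (((l⁻¹ : Fˣ) : F) * p.a), θ.symm (((l⁻¹ : Fˣ) : F) * D.s ((l⁻¹ : Fˣ) : F) * p.t), by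
    have hc' : ∀ x, θ.symm (D.s x) = D.s (θ.symm x) := by
      intro x
      apply θ.injective
      rw [θ.apply_symm_apply, hc, θ.apply_symm_apply]
    rw [← hc', ← hc', ← map_add, ← map_mul]
    congr 1
    rw [map_mul, D.nm_fix, map_mul]
    linear_combination (((l⁻¹ : Fˣ) : F) * D.s ((l⁻¹ : Fˣ) : F)) * p.h⟩
  left_inv p := by
    ext
    · show θ.symm (((l⁻¹ : Fˣ) : F) * (l * θ p.a)) = p.a
      rw [← mul_assoc, Units.inv_mul, one_mul, θ.symm_apply_apply]
    · show θ.symm (((l⁻¹ : Fˣ) : F) * D.s ((l⁻¹ : Fˣ) : F) * (l * D.s l * θ p.t)) = p.t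
      have : ((l⁻¹ : Fˣ) : F) * D.s ((l⁻¹ : Fˣ) : F) * (l * D.s l * θ p.t) = (((l⁻¹ : Fˣ) : F) * l) * D.s (((l⁻¹ : Fˣ) : F) * l) * θ p.t := by
        rw [map_mul]; ring
      rw [this, Units.inv_mul, map_one, one_mul, one_mul, θ.symm_apply_apply]
  right_inv p := by
    ext
    · show (l : F) * θ (θ.symm (((l⁻¹ : Fˣ) : F) * p.a)) = p.a
      rw [θ.apply_symm_apply, ← mul_assoc, Units.mul_inv, one_mul]
    · show (l : F) * D.s l * θ (θ.symm (((l⁻¹ : Fˣ) : F) * D.s ((l⁻¹ : Fˣ) : F) * p.t)) = p.t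
      rw [θ.apply_symm_apply]
      have : (l : F) * D.s l * (((l⁻¹ : Fˣ) : F) * D.s ((l⁻¹ : Fˣ) : F) * p.t) = ((l : F) * ((l⁻¹ : Fˣ) : F)) * D.s ((l : F) * ((l⁻¹ : Fˣ) : F)) * p.t := by
        rw [map_mul]; ring
      rw [this, Units.mul_inv, map_one, one_mul, one_mul]
  map_mul' p r := by
    ext
    · show (l : F) * θ (p.a + r.a) = l * θ p.a + l * θ r.a
      rw [map_add]; ring
    · show (l : F) * D.s l * θ (p.t + r.t + D.s p.a * r.a) = l * D.s l * θ p.t + l * D.s l * θ r.t + D.s (l * θ p.a) * (l * θ r.a)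
      rw [map_add, map_add, map_mul, map_mul, hc]; ring

theorem jj_a (hc : ∀ (θ : F ≃+* F) x, θ (D.s x) = D.s (θ x)) (l : Fˣ) (θ : F ≃+* F) (p : UU D) : (jj hc l θ p).a = l * θ p.a := rfl

/-- automorphisms trivial on the first coordinate -/
def KK (D : Dat F) : Subgroup (MulAut (UU D)) where
  carrier := {φ | ∀ p, (φ p).a = p.a}
  one_mem' := fun p => rfl
  mul_mem' := fun {a b} ha hb p => by show (a (b p)).a = p.a; rw [ha, hb]
  inv_mem' := fun {a} ha p => by
    have h1 := ha (a⁻¹ p)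
    have h2 : a (a⁻¹ p) = p := a.apply_symm_apply p
    rw [h2] at h1; exact h1.symm

theorem mem_KK {φ : MulAut (UU D)} : φ ∈ KK D ↔ ∀ p, (φ p).a = p.a := Iff.rfl

theorem KK_center [Finite F] {φ : MulAut (UU D)} (h : φ ∈ KK D) (t : Fx D) : φ (zz t) = zz t := by
  haveI : CharP F 2 := CharTwo.of_one_ne_zero_of_two_eq_zero one_ne_zero D.two
  obtain ⟨f, hf⟩ := (frobeniusEquiv F 2).surjective (t : F)
  have hf2 : f ^ 2 = t := hf
  have hfs : D.s f = f := by
    apply (frobeniusEquiv F 2).injective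
    show (D.s f) ^ 2 = f ^ 2
    rw [← map_pow, hf2]; exact t.2
  obtain ⟨p, hp⟩ := exists_lift (D := D) f
  have h1 : zz t = p * p := by
    rw [sq]
    congr 1
    apply Subtype.ext
    show (t : F) = p.a * D.s p.a
    rw [hp, hfs, ← hf2]; ring
  rw [h1, map_mul, sq, sq]
  congr 1
  apply Subtype.ext
  show (φ p).a * D.s (φ p).a = p.a * D.s p.a
  rw [h p]

theorem KK_form [Finite F] {φ : MulAut (UU D)} (h : φ ∈ KK D) : ∃ d : F →+ Fx D, ∀ p, φ p = p * zz (d p.a) := by
  have h0 : ∀ p, (p⁻¹ * φ p).a = 0 := by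
    intro p
    rw [mul_a, inv_a, h p, D.add_self]
  have h1 : ∀ p r : UU D, p.a = r.a → p⁻¹ * φ p = r⁻¹ * φ r := by
    intro p r hpr
    have h2 : (r⁻¹ * p).a = 0 := by rw [mul_a, inv_a, hpr, D.add_self]
    obtain ⟨z, hz⟩ : ∃ z : Fx D, r⁻¹ * p = zz z := ⟨_, eq_zz h2⟩
    have h3 : p = r * zz z := by rw [← hz]; group
    rw [h3, map_mul, KK_center h, mul_inv_rev]
    have h4 : (zz z)⁻¹ * r⁻¹ * (φ r * zz z) = (zz z)⁻¹ * ((r⁻¹ * φ r) * zz z) := by group
    rw [h4, zz_comm]; group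
  choose l hl using fun a : F => exists_lift (D := D) a
  let d : F → Fx D := fun a => ⟨((l a)⁻¹ * φ (l a)).t, t_mem (h0 _)⟩
  have hd : ∀ p, p⁻¹ * φ p = zz (d p.a) := by
    intro p
    rw [h1 p (l p.a) (hl _).symm]
    exact eq_zz (h0 _)
  have hzadd : ∀ s t : Fx D, zz s * zz t = zz (s + t) := by
    intro s t
    ext
    · rw [mul_a, zz_a, zz_a, zz_a, add_zero]
    · rw [mul_t, zz_a, zz_a, zz_t, zz_t, zz_t, mul_zero, add_zero]; rfl
  refine ⟨{ toFun := d, map_zero' := ?_, map_add' := ?_ }, fun p => ?_⟩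
  · apply zz_inj
    rw [← one_a (D := D), ← hd, map_one]
    simp only [inv_one, mul_one]; rfl
  · intro a b
    apply zz_inj
    have h2 := hd (l a * l b)
    rw [mul_a, hl, hl] at h2
    rw [← h2, map_mul, mul_inv_rev]
    have h3 : (l b)⁻¹ * (l a)⁻¹ * (φ (l a) * φ (l b)) = (l b)⁻¹ * (((l a)⁻¹ * φ (l a)) * φ (l b)) := by group
    rw [h3, hd, ← zz_comm, ← mul_assoc, hd, hl, hl, hzadd, add_comm]
  · show φ p = p * zz (d p.a)
    rw [← hd]; group

/-- transvection automorphism -/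
def tvA (d : F →+ Fx D) : MulAut (UU D) where
  toFun p := p * zz (d p.a)
  invFun p := p * zz (d p.a)
  left_inv p := by
    show p * zz (d p.a) * zz (d (p * zz (d p.a)).a) = p
    have h1 : (p * zz (d p.a)).a = p.a := by rw [mul_a, zz_a, add_zero]
    rw [h1, mul_assoc, (sq_one_iff (zz (d p.a))).2 rfl, mul_one]
  right_inv p := by
    show p * zz (d p.a) * zz (d (p * zz (d p.a)).a) = p
    have h1 : (p * zz (d p.a)).a = p.a := by rw [mul_a, zz_a, add_zero]
    rw [h1, mul_assoc, (sq_one_iff (zz (d p.a))).2 rfl, mul_one]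
  map_mul' p r := by
    have hzadd : ∀ s t : Fx D, zz s * zz t = zz (s + t) := by
      intro s t
      ext
      · rw [mul_a, zz_a, zz_a, zz_a, add_zero]
      · rw [mul_t, zz_a, zz_a, zz_t, zz_t, zz_t, mul_zero, add_zero]; rfl
    show p * r * zz (d (p * r).a) = p * zz (d p.a) * (r * zz (d r.a))
    rw [mul_a, map_add, ← hzadd]
    have h3 : p * zz (d p.a) * (r * zz (d r.a)) = p * (zz (d p.a) * r) * zz (d r.a) := by group
    rw [h3, ← zz_comm r (d p.a)]; group

theorem card_KK [Finite F] {n : ℕ} (hF : Nat.card F = (2 ^ n) ^ 2) : Nat.card (KK D) = 2 ^ (2 * n ^ 2) := by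
  classical
  haveI : CharP F 2 := CharTwo.of_one_ne_zero_of_two_eq_zero one_ne_zero D.two
  haveI : Fact (Nat.Prime 2) := ⟨Nat.prime_two⟩
  have h1 : Nat.card (KK D) = Nat.card (F →+ Fx D) := by
    symm
    apply Nat.card_congr
    refine Equiv.ofBijective (fun d => (⟨tvA d, fun p => by show (p * zz (d p.a)).a = p.a; rw [mul_a, zz_a, add_zero]⟩ : KK D)) ⟨?_, ?_⟩
    · intro d e h
      apply AddMonoidHom.ext
      intro a
      obtain ⟨p, hp⟩ := exists_lift (D := D) a
      have h2 : p * zz (d p.a) = p * zz (e p.a) := congrArg (fun φ : KK D => (φ : MulAut (UU D)) p) h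
      have h3 := zz_inj (mul_left_cancel h2)
      rw [hp] at h3; exact h3
    · rintro ⟨φ, hφ⟩
      obtain ⟨d, hd⟩ := KK_form hφ
      refine ⟨d, Subtype.ext (MulEquiv.ext fun p => ?_)⟩
      exact (hd p).symm
  rw [h1]
  letI : Module (ZMod 2) F := AddCommGroup.zmodModule (n := 2) (fun x => by rw [two_nsmul]; exact D.add_self x)
  letI : Module (ZMod 2) (Fx D) := AddCommGroup.zmodModule (n := 2) (fun x => by rw [two_nsmul]; exact Subtype.ext (D.add_self x))
  rw [Nat.card_congr (AddMonoidHom.toZModLinearMapEquiv 2 (M := F) (M₁ := Fx D)).toEquiv]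
  have h2 : Module.finrank (ZMod 2) F = 2 * n := by
    have h3 := Module.natCard_eq_pow_finrank (K := ZMod 2) (V := F)
    rw [hF, Nat.card_zmod, ← pow_mul] at h3
    have := Nat.pow_right_injective (le_refl 2) h3
    omega
  have h4 : Module.finrank (ZMod 2) (Fx D) = n := by
    have h3 := Module.natCard_eq_pow_finrank (K := ZMod 2) (V := Fx D)
    rw [(card_UU hF).1, Nat.card_zmod] at h3
    exact (Nat.pow_right_injective (le_refl 2) h3).symm
  rw [Module.natCard_eq_pow_finrank (K := ZMod 2) (V := F →ₗ[ZMod 2] Fx D), Nat.card_zmod, Module.finrank_linearMap, h2, h4]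
  congr 1
  ring

/-- the order of the automorphism group -/
theorem card_aut [Finite F] {n : ℕ} (hn : 1 ≤ n) (hF : Nat.card F = (2 ^ n) ^ 2) (hc : ∀ (θ : F ≃+* F) x, θ (D.s x) = D.s (θ x)) :
    Nat.card (MulAut (UU D)) = 2 ^ (2 * n ^ 2) * (2 * n * ((2 ^ n) ^ 2 - 1)) := by
  classical
  haveI : Fintype F := Fintype.ofFinite F
  haveI : Fact (Nat.Prime 2) := ⟨Nat.prime_two⟩
  have h1 : Nat.card ((Fˣ × (F ≃+* F)) × KK D) = Nat.card (MulAut (UU D)) := by
    apply Nat.card_congr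
    refine Equiv.ofBijective (fun x => jj hc x.1.1 x.1.2 * (x.2 : MulAut (UU D))) ⟨?_, ?_⟩
    · rintro ⟨⟨l, θ⟩, κ⟩ ⟨⟨l', θ'⟩, κ'⟩ h
      have h : jj hc l θ * (κ : MulAut (UU D)) = jj hc l' θ' * (κ' : MulAut (UU D)) := h
      have h2 : ∀ a : F, (l : F) * θ a = l' * θ' a := by
        intro a
        obtain ⟨p, hp⟩ := exists_lift (D := D) a
        have h3 := congrArg (fun φ : MulAut (UU D) => (φ p).a) h
        have h4 : (l : F) * θ ((κ : MulAut (UU D)) p).a = l' * θ' ((κ' : MulAut (UU D)) p).a := h3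
        rw [κ.2, κ'.2, hp] at h4
        exact h4
      have hl : l = l' := by
        have := h2 1
        rw [map_one, map_one, mul_one, mul_one] at this
        exact Units.ext this
      subst hl
      have hθ : θ = θ' := by
        apply RingEquiv.ext
        intro a
        exact mul_left_cancel₀ l.ne_zero (h2 a)
      subst hθ
      have hκ : κ = κ' := Subtype.ext (mul_left_cancel h)
      rw [hκ]
    · intro φ
      obtain ⟨l, θ, hl, h2⟩ := semilinear φ
      refine ⟨⟨⟨Units.mk0 l hl, θ⟩, ⟨(jj hc (Units.mk0 l hl) θ)⁻¹ * φ, ?_⟩⟩, ?_⟩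
      · intro p
        obtain ⟨r, hr⟩ := (jj hc (Units.mk0 l hl) θ).surjective (φ p)
        have h3 : ((jj hc (Units.mk0 l hl) θ)⁻¹ * φ) p = r := by
          show (jj hc (Units.mk0 l hl) θ).symm (φ p) = r
          rw [← hr]; exact MulEquiv.symm_apply_apply _ _
        rw [h3]
        have h4 := congrArg UU.a hr
        rw [jj_a, h2] at h4
        have h5 : θ r.a = θ p.a := mul_left_cancel₀ hl h4
        exact θ.injective h5
      · exact mul_inv_cancel_left _ _
  rw [← h1, Nat.card_prod, Nat.card_prod, card_KK hF]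
  have h2 : Nat.card (F ≃+* F) = 2 * n := (CfsgLib.AutPSL27.ringAut_cyclic 2 (2 * n) (by rw [hF, ← pow_mul, mul_comm n 2])).2
  have h3 : Nat.card Fˣ = (2 ^ n) ^ 2 - 1 := by
    rw [← hF, Nat.card_eq_fintype_card, Nat.card_eq_fintype_card, Fintype.card_units]
  rw [h2, h3]
  ring

theorem KK_normal : (KK D).Normal := by
  constructor
  intro κ hκ g p
  obtain ⟨α, hα⟩ := exists_alpha (D := D) g
  have h1 : g (g⁻¹ p) = p := g.apply_symm_apply p
  show (g (κ (g⁻¹ p))).a = p.a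
  rw [hα, hκ, ← hα, h1]

theorem KK_elem [Finite F] : IsElementaryAbelian 2 (KK D) := by
  refine ⟨⟨⟨?_⟩⟩, ?_⟩
  · rintro ⟨a, ha⟩ ⟨b, hb⟩
    obtain ⟨d, hd⟩ := KK_form ha
    obtain ⟨e, he⟩ := KK_form hb
    apply Subtype.ext
    apply MulEquiv.ext
    intro p
    show a (b p) = b (a p)
    have e1 : a (b p) = p * zz (d p.a) * zz (e p.a) := by rw [he p, map_mul, KK_center ha, hd p]
    have e2 : b (a p) = p * zz (e p.a) * zz (d p.a) := by rw [hd p, map_mul, KK_center hb, he p]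
    rw [e1, e2, mul_assoc, mul_assoc, zz_comm (zz (d p.a))]
  · intro a ha
    obtain ⟨d, hd⟩ := KK_form ha
    apply MulEquiv.ext
    intro p
    rw [pow_two]
    show a (a p) = p
    rw [hd p, map_mul, KK_center ha, hd p, mul_assoc, (sq_one_iff (zz (d p.a))).2 rfl, mul_one]

theorem pCore_eq [Finite F] {n : ℕ} (hF : Nat.card F = (2 ^ n) ^ 2) (hc : ∀ (θ : F ≃+* F) x, θ (D.s x) = D.s (θ x)) :
    pCore 2 (MulAut (UU D)) = KK D := by
  classical
  haveI : Fintype F := Fintype.ofFinite F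
  haveI : Fact (Nat.Prime 2) := ⟨Nat.prime_two⟩
  haveI : Finite (MulAut (UU D)) := inferInstance
  apply le_antisymm
  · intro φ hφ
    have hOp : IsPGroup 2 (pCore 2 (MulAut (UU D))) := CfsgLib.Cores.pCore_isPGroup 2
    have hOn : (pCore 2 (MulAut (UU D))).Normal := inferInstance
    -- scalings in the core are trivial
    have hsc : ∀ (g : MulAut (UU D)) (m : F), m ≠ 0 → g ∈ pCore 2 (MulAut (UU D)) → (∀ p, (g p).a = m * p.a) → m = 1 := by
      intro g m hm0 hg hgm
      obtain ⟨k, hk⟩ := hOp ⟨g, hg⟩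
      have hk' : g ^ 2 ^ k = 1 := congrArg Subtype.val hk
      have h1 : ∀ (j : ℕ) (p : UU D), ((g ^ j) p).a = m ^ j * p.a := by
        intro j
        induction j with
        | zero => intro p; rw [pow_zero, pow_zero, one_mul]; rfl
        | succ j ih => intro p; rw [pow_succ', MulAut.mul_apply, hgm, ih, pow_succ']; ring
      obtain ⟨p, hp⟩ := exists_lift (D := D) 1
      have h2 := h1 (2 ^ k) p
      rw [hk', hp] at h2
      have h3 : p.a = m ^ 2 ^ k * 1 := h2
      rw [hp, mul_one] at h3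
      haveI : CharP F 2 := CharTwo.of_one_ne_zero_of_two_eq_zero one_ne_zero D.two
      have h4 : (m - 1) ^ 2 ^ k = 0 := by
        rw [sub_pow_char_pow, ← h3, one_pow, sub_self]
      exact sub_eq_zero.1 ((pow_eq_zero_iff (by positivity)).1 h4)
    obtain ⟨l, θ, hl, h2⟩ := semilinear φ
    -- θ = 1
    have hθ : ∀ μ : F, θ μ = μ := by
      intro μ
      by_cases hμ : μ = 0
      · rw [hμ, map_zero]
      have h3 : φ * (jj hc (Units.mk0 μ hμ) (RingEquiv.refl F)) * φ⁻¹ * (jj hc (Units.mk0 μ hμ) (RingEquiv.refl F))⁻¹ ∈ pCore 2 (MulAut (UU D)) := by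
        rw [mul_assoc, mul_assoc]
        apply (pCore 2 (MulAut (UU D))).mul_mem hφ
        rw [← mul_assoc]
        exact hOn.conj_mem _ ((pCore 2 (MulAut (UU D))).inv_mem hφ) _
      have h4 := hsc _ (θ μ / μ) (div_ne_zero (by rwa [Ne, map_eq_zero_iff θ θ.injective]) hμ) h3 ?_
      · rwa [div_eq_one_iff_eq hμ] at h4
      · intro p
        obtain ⟨r, hr⟩ := ((jj hc (Units.mk0 μ hμ) (RingEquiv.refl F))).surjective p
        obtain ⟨t, ht⟩ := φ.surjective r
        have e1 : (φ * (jj hc (Units.mk0 μ hμ) (RingEquiv.refl F)) * φ⁻¹ * (jj hc (Units.mk0 μ hμ) (RingEquiv.refl F))⁻¹) p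
            = φ (jj hc (Units.mk0 μ hμ) (RingEquiv.refl F) t) := by
          show φ (jj hc (Units.mk0 μ hμ) (RingEquiv.refl F) (φ.symm ((jj hc (Units.mk0 μ hμ) (RingEquiv.refl F)).symm p))) = _
          rw [← hr, MulEquiv.symm_apply_apply, ← ht, MulEquiv.symm_apply_apply]
        rw [e1, h2, jj_a, ← hr, jj_a, ← ht, h2]
        show l * θ (μ * t.a) = θ μ / μ * (μ * (l * θ t.a))
        rw [map_mul]; field_simp
    have hl1 : l = 1 := hsc φ l hl hφ (fun p => by rw [h2, hθ])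
    intro p
    rw [h2, hθ, hl1, one_mul]
  · apply CfsgLib.Cores.le_pCore KK_normal
    intro x
    refine ⟨1, ?_⟩
    have hx2 := KK_elem.2 (x : MulAut (UU D)) x.2
    apply Subtype.ext
    rw [Subgroup.coe_pow, pow_one, hx2, Subgroup.coe_one]

theorem s3162 {S : Type*} [Group S] [Finite S] (n : ℕ) (hn : 1 ≤ n) [Fintype F] (hF : Fintype.card F = (2 ^ n) ^ 2)
    (hD : ∀ x, D.s x = x ^ (2 ^ n)) (e : UU D ≃* S) :
    Cfsg.IsElementaryAbelian 2 (Cfsg.pCore 2 (MulAut S)) ∧ Nat.card ↥(Cfsg.pCore 2 (MulAut S)) = 2 ^ (2 * n ^ 2) ∧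
      Nat.card (MulAut S) = 2 ^ (2 * n ^ 2) * (2 * n * ((2 ^ n) ^ 2 - 1)) := by
  have hF' : Nat.card F = (2 ^ n) ^ 2 := by rw [Nat.card_eq_fintype_card]; exact hF
  have hc : ∀ (θ : F ≃+* F) x, θ (D.s x) = D.s (θ x) := by
    intro θ x
    rw [hD, hD, map_pow]
  let E : MulAut (UU D) ≃* MulAut S := MulAut.congr e
  have h1 : (pCore 2 (MulAut (UU D))).map E.toMonoidHom = pCore 2 (MulAut S) := CfsgLib.Cores.map_pCore_equiv 2 E
  have h2 := pCore_eq hF' hc
  have h3 : (KK D).map E.toMonoidHom = pCore 2 (MulAut S) := by rw [← h1, h2]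
  refine ⟨?_, ?_, ?_⟩
  · rw [← h3]
    obtain ⟨hcm, hsq⟩ := KK_elem (D := D)
    refine ⟨⟨⟨?_⟩⟩, ?_⟩
    · rintro ⟨_, ⟨a, ha, rfl⟩⟩ ⟨_, ⟨b, hb, rfl⟩⟩
      apply Subtype.ext
      show E a * E b = E b * E a
      rw [← map_mul, ← map_mul]
      congr 1
      exact congrArg Subtype.val (hcm.is_comm.comm ⟨a, ha⟩ ⟨b, hb⟩)
    · rintro _ ⟨a, ha, rfl⟩
      rw [← map_pow, hsq a ha, map_one]
  · rw [← h3, Subgroup.card_map_of_injective E.injective, card_KK hF']
  · rw [← card_aut hn hF' hc]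
    exact (Nat.card_congr E.toEquiv).symm

end CfsgLib.US8
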