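import Cfsg.Statements.S4452
import Cfsg.Agent.LibExtend7
import Cfsg.Agent.LibGlaub2

set_option autoImplicit false
set_option linter.all false
open Cfsg
open scoped Pointwise

namespace Cfsg.Agent.S4452

/-- Let the finite group G be the product of a normal subgroup K and a solvable subgroup H of coprime orders, and let N = N_G(H). Then the number of irreducible characters of G of degree coprime to the order of H equals the number of irreducible characters of N of degree coprime to the order of H. (The two sets are in fact in a canonical bijection; only the equality of their sizes is stated here.) -/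
theorem result {G : Type*} [Group G] [Finite G] (K H : Subgroup G) [K.Normal] (hKH : K ⊔ H = ⊤) (hcop : (Nat.card K).Coprime (Nat.card H)) (hsolv : Group.IsSolvable H) : Nat.card {χ : Cfsg.IrrCharacter G // (Cfsg.charDegree (χ : G → ℂ)).Coprime (Nat.card H)} = Nat.card {η : Cfsg.IrrCharacter (Subgroup.normalizer (H : Set G)) // (Cfsg.charDegree (η : Subgroup.normalizer (H : Set G) → ℂ)).Coprime (Nat.card H)} := by
  classical
  haveI := Fintype.ofFinite G
  haveI := Fintype.ofFinite K
  set N : Subgroup G := Subgroup.normalizer (H : Set G) with hN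
  haveI := Fintype.ofFinite N
  have hHN : H ≤ N := Subgroup.le_normalizer
  have hinf : K ⊓ H = ⊥ := by
    rw [← Subgroup.card_eq_one]
    exact Nat.Coprime.eq_one_of_dvd (Nat.Coprime.coprime_dvd_left (Subgroup.card_dvd_of_le inf_le_left) hcop) (Subgroup.card_dvd_of_le inf_le_right)
  have hKHset : ∀ g : G, ∃ k ∈ K, ∃ h ∈ H, g = k * h := by
    intro g
    have hg : g ∈ ((K : Set G) * (H : Set G)) := by
      rw [← Subgroup.normal_mul, hKH]; trivial
    obtain ⟨k, hk, y, hy, rfl⟩ := hg
    exact ⟨k, hk, y, hy, rfl⟩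
  -- elements of K ∩ N centralise H
  have hcen : ∀ k ∈ K, k ∈ N → ∀ h ∈ H, k * h = h * k := by
    intro k hk hkN h hh
    have h1 : k * h * k⁻¹ * h⁻¹ ∈ K ⊓ H := by
      refine ⟨?_, ?_⟩
      · have : k * h * k⁻¹ * h⁻¹ = k * (h * k⁻¹ * h⁻¹) := by group
        rw [this]
        exact K.mul_mem hk (‹K.Normal›.conj_mem _ (K.inv_mem hk) h)
      · have h2 := (Subgroup.mem_normalizer_iff.mp hkN h).mp hh
        exact H.mul_mem h2 (H.inv_mem hh)
    rw [hinf, Subgroup.mem_bot] at h1
    calc k * h = (k * h * k⁻¹ * h⁻¹) * (h * k) := by group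
      _ = h * k := by rw [h1, one_mul]
  have hL := CfsgLib.Extend.card_coprime_degree K H hKH hcop
  -- the normalizer
  set K' : Subgroup N := K.subgroupOf N with hK'
  set H' : Subgroup N := H.subgroupOf N with hH'
  have hcardH : Nat.card H' = Nat.card H := Nat.card_congr (Subgroup.subgroupOfEquivOfLe hHN).toEquiv
  have hcardK : Nat.card K' ∣ Nat.card K := by
    have : Nat.card K' = Nat.card ↥(K ⊓ N) := by
      rw [hK', ← Subgroup.inf_subgroupOf_right]
      exact Nat.card_congr (Subgroup.subgroupOfEquivOfLe (inf_le_right : K ⊓ N ≤ N)).toEquiv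
    rw [this]
    exact Subgroup.card_dvd_of_le inf_le_left
  have hcop' : (Nat.card K').Coprime (Nat.card H') := by
    rw [hcardH]; exact Nat.Coprime.coprime_dvd_left hcardK hcop
  have hKH' : K' ⊔ H' = ⊤ := by
    rw [eq_top_iff]
    intro n _
    obtain ⟨k, hk, h, hh, hkh⟩ := hKHset n
    have hkN : k ∈ N := by
      have : k = n * h⁻¹ := by rw [hkh]; group
      rw [this]; exact N.mul_mem n.2 (N.inv_mem (hHN hh))
    have : n = (⟨k, hkN⟩ : N) * ⟨h, hHN hh⟩ := Subtype.ext hkh
    rw [this]
    exact mul_mem (Subgroup.mem_sup_left hk) (Subgroup.mem_sup_right hh)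
  have hR := CfsgLib.Extend.card_coprime_degree K' H' hKH' hcop'
  rw [hcardH] at hR
  rw [hL, hR]
  have hhom : Nat.card (H →* ℂˣ) = Nat.card (H' →* ℂˣ) :=
    Nat.card_congr ((Subgroup.subgroupOfEquivOfLe hHN).symm.monoidHomCongrLeft).toEquiv
  rw [hhom]
  congr 1
  -- the action of H on K
  let φ : H →* MulAut K := (MulAut.conjNormal : G →* MulAut K).comp H.subtype
  have h3 := CfsgLib.Glaub2.card_invariant_irr φ hcop.symm hsolv
  have h4 : Nat.card {θ : IrrCharacter K // CfsgLib.Extend.Inv K (θ : K → ℂ)} =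
      Nat.card {χ : IrrCharacter K // CfsgLib.Glaub.Inv φ (χ : K → ℂ)} := by
    apply Nat.card_congr
    apply Equiv.subtypeEquivRight
    intro θ
    constructor
    · intro h a k
      exact h a k
    · intro h g k
      obtain ⟨x, hx, y, hy, rfl⟩ := hKHset g
      have e1 : (⟨x * y * k * (x * y)⁻¹, ‹K.Normal›.conj_mem (k : G) k.2 (x * y)⟩ : K) = ⟨x, hx⟩ * (φ ⟨y, hy⟩ k) * ⟨x, hx⟩⁻¹ := by
        apply Subtype.ext
        show x * y * k * (x * y)⁻¹ = x * (y * k * y⁻¹) * x⁻¹
        group
      rw [e1, (CfsgLib.CharBasic.irr_classFun θ.2) _ _]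
      exact h ⟨y, hy⟩ k
  rw [h4, h3]
  have h5 : Nat.card {θ : IrrCharacter K' // CfsgLib.Extend.Inv K' (θ : K' → ℂ)} = Nat.card (IrrCharacter K') := by
    apply Nat.card_congr
    apply Equiv.subtypeUnivEquiv
    intro θ g k
    obtain ⟨x, hx, y, hy, hxy⟩ := hKHset g
    have hxN : x ∈ N := by
      have : x = g * y⁻¹ := by rw [hxy]; group
      rw [this]; exact N.mul_mem g.2 (N.inv_mem (hHN hy))
    have e1 : (⟨g * k * g⁻¹, (inferInstance : K'.Normal).conj_mem (k : N) k.2 g⟩ : K') = ⟨⟨x, hxN⟩, hx⟩ * k * (⟨⟨x, hxN⟩, hx⟩ : K')⁻¹ := by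
      apply Subtype.ext
      apply Subtype.ext
      show (g : G) * (k : N) * (g : G)⁻¹ = x * (k : N) * x⁻¹
      rw [hxy]
      have h6 := hcen ((k : N) : G) k.2 (k : N).2 y hy
      have : x * y * (k : N) * (x * y)⁻¹ = x * (y * (k : N)) * y⁻¹ * x⁻¹ := by group
      rw [this, ← h6]; group
    rw [e1]
    exact (CfsgLib.CharBasic.irr_classFun θ.2) _ _
  rw [h5, CfsgLib.CharBasic.card_irr]
  apply CfsgLib.Glaub2.card_conjClasses_congr
  have hfN : ∀ k : CfsgLib.Glaub.fix φ, ((k : K) : G) ∈ N := by
    intro k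
    have h7 : ∀ h ∈ H, ((k : K) : G) * h = h * ((k : K) : G) := by
      intro h hh
      have h8 := congrArg (fun z : K => (z : G)) (k.2 ⟨h, hh⟩)
      have h9 : h * ((k : K) : G) * h⁻¹ = ((k : K) : G) := h8
      calc ((k : K) : G) * h = (h * ((k : K) : G) * h⁻¹) * h := by rw [h9]
        _ = h * ((k : K) : G) := by group
    rw [hN, Subgroup.mem_normalizer_iff]
    intro h
    constructor
    · intro hh
      rw [h7 h hh, mul_inv_cancel_right]; exact hh
    · intro hh
      have h10 := h7 _ hh
      have h11 : h = ((k : K) : G) * h * ((k : K) : G)⁻¹ := by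
        have h12 : ((k : K) : G) * (((k : K) : G) * h * ((k : K) : G)⁻¹) = ((k : K) : G) * h := by
          rw [h10]; group
        exact (mul_left_cancel h12).symm
      rw [h11]; exact hh
  exact
    { toFun := fun k => ⟨⟨k.1, hfN k⟩, k.1.2⟩
      invFun := fun k => ⟨⟨k.1, k.2⟩, fun h => by
        apply Subtype.ext
        show (h : G) * (k : N) * (h : G)⁻¹ = (k : N)
        rw [← hcen ((k : N) : G) k.2 (k : N).2 h h.2]; group⟩
      left_inv := fun k => rfl
      right_inv := fun k => rfl
      map_mul' := fun a b => rfl }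

end Cfsg.Agent.S4452
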