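import Mathlib
import Cfsg.Agent.EqBase
import Cfsg.Agent.S4452
import Cfsg.Agent.LibGallagher
import Cfsg.Agent.LibFixIrr19
import Cfsg.Agent.LibH7Pron
import Cfsg.Agent.LibFgClass

set_option autoImplicit false
set_option maxHeartbeats 400000
set_option linter.unusedSectionVars false

/-! Groups with a normal `p`-complement and a unique character of degree divisible by `p` (helper19) -/

namespace CfsgLib.UniP19

open Cfsg CfsgLib.CharBasic CfsgLib.Clifford CfsgLib.Extend CfsgLib.CharIndA
open scoped ComplexConjugate commutatorElement Pointwise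

universe u v

variable {G : Type u} [Group G] [Finite G] {p : ℕ} [hp : Fact p.Prime]

theorem uniq (h1 : Nat.card {χ : IrrCharacter G // p ∣ charDegree (χ : G → ℂ)} = 1) {χ ψ : G → ℂ} (hχ : IsIrrCharacter G χ)
    (hψ : IsIrrCharacter G ψ) (hd : p ∣ charDegree χ) (hd' : p ∣ charDegree ψ) : χ = ψ := by
  haveI := (Nat.card_eq_one_iff_unique.1 h1).1
  have h3 : (⟨⟨_, hχ⟩, hd⟩ : {χ : IrrCharacter G // p ∣ charDegree (χ : G → ℂ)}) = ⟨⟨ψ, hψ⟩, hd'⟩ :=
    Subsingleton.elim _ _
  exact congrArg (fun x : {χ : IrrCharacter G // p ∣ charDegree (χ : G → ℂ)} => (x.1 : G → ℂ)) h3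

section Main

variable {N : Subgroup G} [hNn : N.Normal] (hnil : ¬ Group.IsNilpotent G) (hN : (Nat.card N).Coprime p)
  (hidx : ∃ k : ℕ, N.index = p ^ k) (hone : Nat.card {χ : IrrCharacter G // p ∣ charDegree (χ : G → ℂ)} = 1)

include hnil hidx hone in
theorem quot_linear (ξ : IrrCharacter (G ⧸ N)) : (ξ : G ⧸ N → ℂ) 1 = 1 := by
  classical
  letI := Fintype.ofFinite G
  letI := Fintype.ofFinite N
  by_contra h
  obtain ⟨k, hk⟩ := hidx
  have h1 : charDegree (ξ : G ⧸ N → ℂ) ∣ p ^ k := by
    rw [← hk, Subgroup.index]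
    exact CfsgLib.CharInt2.charDegree_dvd_card ξ.2
  obtain ⟨j, _, hj⟩ := (Nat.dvd_prime_pow hp.out).1 h1
  have hj0 : j ≠ 0 := by
    rintro rfl
    apply h
    rw [CfsgLib.CharInt.irr_one_eq_charDegree ξ.2, hj]
    simp
  have hdvd : p ∣ charDegree (ξ : G ⧸ N → ℂ) := by rw [hj]; exact dvd_pow_self _ hj0
  set lam : G → ℂ := fun g => (ξ : G ⧸ N → ℂ) g with hlamdef
  have hlam : IsIrrCharacter G lam := CfsgLib.Quot19.irr_inflate N ξ.2
  have hlamN : ∀ n ∈ N, lam n = lam 1 := CfsgLib.Quot19.infl_ker N _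
  have hlamd : p ∣ charDegree lam := hdvd
  have hlam1 : lam 1 ≠ 0 := irr_one_ne_zero hlam
  -- N ≠ 1
  have hNb : ∃ n ∈ N, n ≠ 1 := by
    by_contra hcon
    push Not at hcon
    apply hnil
    have h2 : N = ⊥ := (Subgroup.eq_bot_iff_forall N).2 hcon
    have h3 : IsPGroup p G := by
      apply IsPGroup.of_card (n := k)
      rw [← hk, h2, Subgroup.index_bot]
    exact h3.isNilpotent
  obtain ⟨n, hn, hn1⟩ := hNb
  have hnc : ¬ IsConj (1 : N) ⟨n, hn⟩ := by
    rw [isConj_one_right]
    intro h2
    apply hn1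
    exact congrArg Subtype.val h2
  rw [isConj_iff_irr] at hnc
  push Not at hnc
  obtain ⟨θ, hθ⟩ := hnc
  have hθne : (θ : N → ℂ) ≠ fun _ => 1 := by
    intro h2
    apply hθ
    rw [h2]
  obtain ⟨ψ, hψ, hne⟩ := exists_above N θ.2
  by_cases hpd : p ∣ charDegree ψ
  · have h2 := uniq hone hψ hlam hpd hlamd
    apply hne
    have h3 : (fun x : N => ψ x) = fun x : N => lam 1 * (1 : ℂ) := by
      ext x
      rw [h2, hlamN x x.2, mul_one]
    have h4 : classInner (fun x : N => ψ x) (θ : N → ℂ) = lam 1 * classInner (fun _ : N => (1 : ℂ)) (θ : N → ℂ) := by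
      rw [h3]
      unfold classInner
      simp only [Finset.mul_sum]
      apply Finset.sum_congr rfl
      intro x _
      ring
    rw [h4, irr_inner_ne isIrrCharacter_one θ.2 (Ne.symm hθne), mul_zero]
  · have hcop : (charDegree ψ).Coprime N.index := by
      rw [hk]
      exact Nat.Coprime.pow_right k ((hp.out.coprime_iff_not_dvd.2 hpd).symm)
    have hψN := restrict_irr_of_coprime hψ hcop
    have hprod := CfsgLib.Gallagher.gallagher_irr N hψ hψN hlam hlamN
    have hpd2 : p ∣ charDegree (lam * ψ) := by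
      have h2 := CfsgLib.CharInt.irr_one_eq_charDegree hprod
      rw [Pi.mul_apply, CfsgLib.CharInt.irr_one_eq_charDegree hlam, CfsgLib.CharInt.irr_one_eq_charDegree hψ] at h2
      have h3 : charDegree lam * charDegree ψ = charDegree (lam * ψ) := by exact_mod_cast h2
      rw [← h3]
      exact hlamd.mul_right _
    have h2 := uniq hone hprod hlam hpd2 hlamd
    have h3 : (fun x : N => ψ x) = fun _ : N => (1 : ℂ) := by
      ext x
      have h4 := congrFun h2 (x : G)
      rw [Pi.mul_apply, hlamN x x.2] at h4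
      exact mul_left_cancel₀ hlam1 (by rw [h4, mul_one])
    apply hne
    rw [h3, irr_inner_ne isIrrCharacter_one θ.2 (Ne.symm hθne)]

include hnil hidx hone in
theorem quot_comm (a b : G ⧸ N) : a * b = b * a := CfsgLib.FixIrr19.comm_of_linear (quot_linear hnil hidx hone) a b

end Main

/-- classes of size prime to `p` when the Sylow subgroup `P` has `N_G(P) = C_G(P)` -/
theorem card_classes (P : Sylow p G) (hPc : Subgroup.normalizer ((P : Subgroup G) : Set G) ≤ Subgroup.centralizer ((P : Subgroup G) : Set G)) :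
    Nat.card {C : ConjClasses G // ¬ p ∣ Nat.card C.carrier} = Nat.card (ConjClasses (Subgroup.normalizer ((P : Subgroup G) : Set G))) := by
  classical
  set M := Subgroup.normalizer ((P : Subgroup G) : Set G) with hM
  have hcar : ∀ g : G, Nat.card (ConjClasses.mk g).carrier = (Subgroup.centralizer ({g} : Set G)).index := fun g =>
    CfsgLib.FgClass.ncard_carrier g
  have hgood : ∀ c : M, ¬ p ∣ Nat.card (ConjClasses.mk (c : G)).carrier := by
    intro c hd
    rw [hcar] at hd
    have h1 : (P : Subgroup G) ≤ Subgroup.centralizer ({(c : G)} : Set G) := by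
      intro x hx
      rw [Subgroup.mem_centralizer_singleton_iff]
      exact ((Subgroup.mem_centralizer_iff.1 (hPc c.2)) x hx)
    exact P.not_dvd_index (hd.trans (Subgroup.index_dvd_of_le h1))
  let F : ConjClasses M → {C : ConjClasses G // ¬ p ∣ Nat.card C.carrier} := fun C =>
    ⟨ConjClasses.map M.subtype C, by
      obtain ⟨c, rfl⟩ := ConjClasses.mk_surjective C
      exact hgood c⟩
  symm
  apply Nat.card_eq_of_bijective F
  constructor
  · intro C D hCD
    obtain ⟨c, rfl⟩ := ConjClasses.mk_surjective C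
    obtain ⟨d, rfl⟩ := ConjClasses.mk_surjective D
    · · have h1 : ConjClasses.mk (c : G) = ConjClasses.mk (d : G) := congrArg Subtype.val hCD
        rw [ConjClasses.mk_eq_mk_iff_isConj, isConj_iff] at h1
        obtain ⟨g, hg⟩ := h1
        obtain ⟨n, hn, hne⟩ := P.conj_eq_normalizer_conj_of_mem_centralizer (c : G) g⁻¹ (hPc c.2) (by
          rw [inv_inv, hg]; exact hPc d.2)
        rw [inv_inv, hg] at hne
        rw [ConjClasses.mk_eq_mk_iff_isConj, isConj_iff]
        refine ⟨⟨n⁻¹, M.inv_mem hn⟩, Subtype.ext ?_⟩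
        rw [hne]
        simp
  · rintro ⟨C, hC⟩
    obtain ⟨g, rfl⟩ := ConjClasses.mk_surjective C
    · have h1 := hC
      rw [hcar, ← CfsgLib.H7Pron.exists_sylow_le_iff] at h1
      obtain ⟨Q, hQ⟩ := h1
      obtain ⟨x, hx⟩ := MulAction.exists_smul_eq G Q P
      have h2 : x * g * x⁻¹ ∈ M := by
        apply Subgroup.centralizer_le_normalizer
        rw [Subgroup.mem_centralizer_iff]
        intro y hy
        have h3 : x⁻¹ * y * x ∈ (Q : Subgroup G) := by
          rw [← hx] at hy
          have h4 : y ∈ ((x • Q : Sylow p G) : Subgroup G) := hy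
          rw [Sylow.coe_subgroup_smul] at h4
          have h5 := (Subgroup.mem_pointwise_smul_iff_inv_smul_mem).1 h4
          have h6 : (MulAut.conj x)⁻¹ • y = x⁻¹ * y * x := by
            rw [← map_inv, MulAut.smul_def, MulAut.conj_apply, inv_inv]
          rwa [h6] at h5
        have h4 := hQ h3
        rw [Subgroup.mem_centralizer_singleton_iff] at h4
        calc y * (x * g * x⁻¹) = x * ((x⁻¹ * y * x) * g) * x⁻¹ := by group
          _ = x * (g * (x⁻¹ * y * x)) * x⁻¹ := by rw [h4]
          _ = x * g * x⁻¹ * y := by group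
      refine ⟨ConjClasses.mk ⟨_, h2⟩, Subtype.ext ?_⟩
      change ConjClasses.mk (x * g * x⁻¹) = ConjClasses.mk g
      rw [ConjClasses.mk_eq_mk_iff_isConj, isConj_comm, isConj_iff]
      exact ⟨x, rfl⟩

theorem main {N : Subgroup G} [hNn : N.Normal] (hnil : ¬ Group.IsNilpotent G) (hN : (Nat.card N).Coprime p)
    (hidx : ∃ k : ℕ, N.index = p ^ k) (hone : Nat.card {χ : IrrCharacter G // p ∣ charDegree (χ : G → ℂ)} = 1) :
    Nat.card {C : ConjClasses G // p ∣ Nat.card C.carrier} = 1 := by
  classical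
  letI := Fintype.ofFinite G
  have hqc := quot_comm hnil hidx hone
  obtain ⟨k, hk⟩ := hidx
  let P : Sylow p G := default
  have hcG := Subgroup.card_mul_index N
  rw [hk] at hcG
  have hpN : ¬ p ∣ Nat.card N := fun h => (hp.out.coprime_iff_not_dvd.1 hN.symm) h
  have hcP : Nat.card (P : Subgroup G) = p ^ k := by
    rw [P.card_eq_multiplicity, ← hcG, Nat.factorization_mul Nat.card_pos.ne' (pow_ne_zero _ hp.out.ne_zero)]
    rw [Finsupp.add_apply, Nat.factorization_eq_zero_of_not_dvd hpN, hp.out.factorization_pow, Finsupp.single_eq_same, zero_add]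
  have hcop : (Nat.card N).Coprime (Nat.card (P : Subgroup G)) := by
    rw [hcP]; exact hN.pow_right k
  have hcompl : Subgroup.IsComplement' N (P : Subgroup G) :=
    Subgroup.isComplement'_of_coprime (by rw [hcP, hcG]) hcop
  have hsup := hcompl.sup_eq_top
  have hinf : N ⊓ (P : Subgroup G) = ⊥ := disjoint_iff.1 hcompl.disjoint
  have hset : ∀ g : G, ∃ x ∈ N, ∃ y ∈ (P : Subgroup G), g = x * y := by
    intro g
    have hg : g ∈ ((N : Set G) * ((P : Subgroup G) : Set G)) := by
      rw [← Subgroup.normal_mul, hsup]; trivial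
    obtain ⟨x, hx, y, hy, rfl⟩ := hg
    exact ⟨x, hx, y, hy, rfl⟩
  have hPcomm : ∀ a ∈ (P : Subgroup G), ∀ b ∈ (P : Subgroup G), a * b = b * a := by
    intro a ha b hb
    have h1 : ((a * b : G) : G ⧸ N) = ((b * a : G) : G ⧸ N) := hqc a b
    have h2 : (a * b)⁻¹ * (b * a) ∈ N := QuotientGroup.eq.1 h1
    have h3 : (a * b)⁻¹ * (b * a) ∈ N ⊓ (P : Subgroup G) :=
      ⟨h2, (P : Subgroup G).mul_mem ((P : Subgroup G).inv_mem ((P : Subgroup G).mul_mem ha hb)) ((P : Subgroup G).mul_mem hb ha)⟩
    rw [hinf, Subgroup.mem_bot, inv_mul_eq_one] at h3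
    exact h3
  have hPc : Subgroup.normalizer ((P : Subgroup G) : Set G) ≤ Subgroup.centralizer ((P : Subgroup G) : Set G) := by
    intro g hg
    obtain ⟨x, hx, y, hy, rfl⟩ := hset g
    have hxn : x ∈ Subgroup.normalizer ((P : Subgroup G) : Set G) := by
      have h1 : x = (x * y) * y⁻¹ := by group
      rw [h1]
      exact mul_mem hg (inv_mem (Subgroup.le_normalizer hy))
    refine mul_mem ?_ ?_
    · rw [Subgroup.mem_centralizer_iff]
      intro h hh
      have h1 : x * h * x⁻¹ * h⁻¹ ∈ N ⊓ (P : Subgroup G) := by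
        refine ⟨?_, ?_⟩
        · have : x * h * x⁻¹ * h⁻¹ = x * (h * x⁻¹ * h⁻¹) := by group
          rw [this]
          exact N.mul_mem hx (hNn.conj_mem _ (N.inv_mem hx) h)
        · have h2 := (Subgroup.mem_normalizer_iff.mp hxn h).mp hh
          exact (P : Subgroup G).mul_mem h2 ((P : Subgroup G).inv_mem hh)
      rw [hinf, Subgroup.mem_bot] at h1
      calc h * x = (x * h * x⁻¹ * h⁻¹)⁻¹ * (x * h) := by group
        _ = x * h := by rw [h1, inv_one, one_mul]
    · rw [Subgroup.mem_centralizer_iff]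
      intro h hh
      exact hPcomm h hh y hy
  have hsolv : Group.IsSolvable (P : Subgroup G) := by
    haveI : Group.IsNilpotent (P : Subgroup G) := P.2.isNilpotent
    infer_instance
  have hM := Cfsg.Agent.S4452.result N (P : Subgroup G) hsup hcop hsolv
  have hk0 : k ≠ 0 := by
    rintro rfl
    obtain ⟨⟨χ, hχ⟩⟩ := (Nat.card_eq_one_iff_unique.1 hone).2
    have h1 := hχ.trans (CfsgLib.CharInt2.charDegree_dvd_card χ.2)
    rw [← hcG, pow_zero, mul_one] at h1
    exact hpN h1
  have hiff : ∀ d : ℕ, d.Coprime (Nat.card (P : Subgroup G)) ↔ ¬ p ∣ d := by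
    intro d
    rw [hcP, Nat.coprime_pow_right_iff (Nat.pos_of_ne_zero hk0), Nat.coprime_comm, hp.out.coprime_iff_not_dvd]
  have hMr : Nat.card {η : IrrCharacter (Subgroup.normalizer ((P : Subgroup G) : Set G)) // (charDegree (η : Subgroup.normalizer ((P : Subgroup G) : Set G) → ℂ)).Coprime (Nat.card (P : Subgroup G))} =
      Nat.card (ConjClasses (Subgroup.normalizer ((P : Subgroup G) : Set G))) := by
    rw [← card_irr]
    apply Nat.card_congr
    apply Equiv.subtypeUnivEquiv
    intro η
    rw [hiff]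
    intro hd
    have hnP : ((P : Subgroup G).subgroupOf (Subgroup.normalizer ((P : Subgroup G) : Set G))).Normal := Subgroup.normal_in_normalizer
    have h1 := CfsgLib.CharMore.ito η.2 ((P : Subgroup G).subgroupOf (Subgroup.normalizer ((P : Subgroup G) : Set G)))
      (fun a ha b hb => Subtype.ext (hPcomm a ha b hb))
    have h2 : p ∣ (P : Subgroup G).index := by
      refine (hd.trans h1).trans ?_
      exact Subgroup.relIndex_dvd_index_of_le Subgroup.le_normalizer
    exact P.not_dvd_index h2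
  have hMl : Nat.card {χ : IrrCharacter G // (charDegree (χ : G → ℂ)).Coprime (Nat.card (P : Subgroup G))} =
      Nat.card {χ : IrrCharacter G // ¬ p ∣ charDegree (χ : G → ℂ)} :=
    Nat.card_congr (Equiv.subtypeEquivRight fun χ => hiff _)
  rw [hMl, hMr] at hM
  have hcc := card_classes P hPc
  have h1 : Nat.card (IrrCharacter G) = Nat.card {χ : IrrCharacter G // p ∣ charDegree (χ : G → ℂ)} +
      Nat.card {χ : IrrCharacter G // ¬ p ∣ charDegree (χ : G → ℂ)} := by
    rw [← Nat.card_sum]
    exact Nat.card_congr (Equiv.sumCompl _).symm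
  have h2 : Nat.card (ConjClasses G) = Nat.card {C : ConjClasses G // p ∣ Nat.card C.carrier} +
      Nat.card {C : ConjClasses G // ¬ p ∣ Nat.card C.carrier} := by
    rw [← Nat.card_sum]
    exact Nat.card_congr (Equiv.sumCompl _).symm
  rw [card_irr, hone, hM] at h1
  rw [hcc] at h2
  omega

end CfsgLib.UniP19
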