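import Mathlib
import Cfsg.Prelude.Def_LinearParabolics

set_option autoImplicit false

/-! block labels of compositions; double cosets of Young subgroups -/

namespace CfsgLib.Unip

open Finset Cfsg

/-- partial sums -/
def ps {n : ℕ} (μ : Fin n → ℕ) (t : ℕ) : ℕ := ∑ k ∈ univ.filter (fun k : Fin n => k.val < t), μ k

theorem ps_zero {n : ℕ} (μ : Fin n → ℕ) : ps μ 0 = 0 := by
  unfold ps
  apply Finset.sum_eq_zero
  intro k hk
  simp at hk

theorem ps_mono {n : ℕ} (μ : Fin n → ℕ) : Monotone (ps μ) := by
  intro s t h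
  unfold ps
  apply Finset.sum_le_sum_of_subset
  intro k hk
  simp only [mem_filter, mem_univ, true_and] at hk ⊢
  omega

theorem ps_top {n : ℕ} (μ : Fin n → ℕ) (h : ∑ i, μ i = n) : ps μ n = n := by
  unfold ps
  rw [Finset.filter_true_of_mem]
  · exact h
  · intro k _
    exact k.2

theorem ps_le {n : ℕ} (μ : Fin n → ℕ) (h : ∑ i, μ i = n) (t : ℕ) : ps μ t ≤ n := by
  conv_rhs => rw [← h]
  unfold ps
  exact Finset.sum_le_sum_of_subset (Finset.filter_subset _ _)

theorem ps_succ {n : ℕ} (μ : Fin n → ℕ) (a : Fin n) : ps μ (a.val + 1) = ps μ a.val + μ a := by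
  unfold ps
  have : (univ.filter fun k : Fin n => k.val < a.val + 1) = insert a (univ.filter fun k : Fin n => k.val < a.val) := by
    ext k
    simp only [mem_filter, mem_univ, true_and, mem_insert]
    constructor
    · intro h
      rcases Nat.lt_succ_iff_lt_or_eq.mp h with h | h
      · exact Or.inr h
      · exact Or.inl (Fin.ext h)
    · rintro (h | h)
      · rw [h]; omega
      · omega
  rw [this, Finset.sum_insert (by simp), add_comm]

theorem compLabel_eq {n : ℕ} (μ : Fin n → ℕ) (i : Fin n) :
    compLabel μ i = (univ.filter fun j : Fin n => ps μ (j.val + 1) ≤ i.val).card := by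
  unfold compLabel ps
  congr 1
  apply Finset.filter_congr
  intro j _
  have : (univ.filter fun k : Fin n => k ≤ j) = univ.filter fun k : Fin n => k.val < j.val + 1 := by
    apply Finset.filter_congr
    intro k _
    rw [Fin.le_iff_val_le_val]
    omega
  rw [this]

theorem le_compLabel {n : ℕ} (μ : Fin n → ℕ) (i : Fin n) {a : ℕ} (ha : a ≤ n) :
    a ≤ compLabel μ i ↔ ps μ a ≤ i.val := by
  rw [compLabel_eq]
  constructor
  · intro h
    by_contra hc
    push Not at hc
    have h0 : a ≠ 0 := by
      rintro rfl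
      rw [ps_zero] at hc
      omega
    have hsub : (univ.filter fun j : Fin n => ps μ (j.val + 1) ≤ i.val) ⊆ univ.filter fun j : Fin n => j.val < a - 1 := by
      intro j hj
      simp only [mem_filter, mem_univ, true_and] at hj ⊢
      by_contra hh
      have : ps μ a ≤ ps μ (j.val + 1) := ps_mono μ (by omega)
      omega
    have h1 := Finset.card_le_card hsub
    have h2 : (univ.filter fun j : Fin n => j.val < a - 1).card ≤ a - 1 := by
      calc (univ.filter fun j : Fin n => j.val < a - 1).card
          = ((univ.filter fun j : Fin n => j.val < a - 1).map Fin.valEmbedding).card := (card_map _).symm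
        _ ≤ (Finset.range (a - 1)).card := by
            apply Finset.card_le_card
            intro x hx
            simp only [mem_map, mem_filter, mem_univ, true_and] at hx
            obtain ⟨j, hj, rfl⟩ := hx
            exact Finset.mem_range.mpr hj
        _ = a - 1 := Finset.card_range _
    omega
  · intro h
    have hsub : (univ.filter fun j : Fin n => j.val < a) ⊆ (univ.filter fun j : Fin n => ps μ (j.val + 1) ≤ i.val) := by
      intro j hj
      simp only [mem_filter, mem_univ, true_and] at hj ⊢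
      exact (ps_mono μ (by omega : j.val + 1 ≤ a)).trans h
    have h2 : (univ.filter fun j : Fin n => j.val < a).card = a := by
      calc (univ.filter fun j : Fin n => j.val < a).card
          = ((univ.filter fun j : Fin n => j.val < a).map Fin.valEmbedding).card := (card_map _).symm
        _ = (Finset.range a).card := by
            congr 1
            ext x
            simp only [mem_map, mem_filter, mem_univ, true_and, mem_range]
            constructor
            · rintro ⟨j, hj, rfl⟩
              exact hj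
            · intro hx
              exact ⟨⟨x, by omega⟩, hx, rfl⟩
        _ = a := Finset.card_range _
    have := Finset.card_le_card hsub
    omega

theorem compLabel_mono {n : ℕ} (μ : Fin n → ℕ) : Monotone (compLabel μ) := by
  intro i j h
  rw [compLabel_eq, compLabel_eq]
  apply Finset.card_le_card
  intro k hk
  simp only [mem_filter, mem_univ, true_and] at hk ⊢
  exact hk.trans (Fin.le_iff_val_le_val.mp h)

theorem compLabel_lt {n : ℕ} (μ : Fin n → ℕ) (h : ∑ i, μ i = n) (i : Fin n) : compLabel μ i < n := by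
  by_contra hc
  push Not at hc
  have := (le_compLabel μ i le_rfl).mp hc
  rw [ps_top μ h] at this
  omega

theorem card_ge {n : ℕ} (t : ℕ) (ht : t ≤ n) : (univ.filter fun i : Fin n => t ≤ i.val).card = n - t := by
  have h1 : (univ.filter fun i : Fin n => t ≤ i.val).card + (univ.filter fun i : Fin n => ¬ t ≤ i.val).card = n := by
    rw [Finset.card_filter_add_card_filter_not]
    simp
  have h2 : (univ.filter fun i : Fin n => ¬ t ≤ i.val).card = t := by
    calc (univ.filter fun j : Fin n => ¬ t ≤ j.val).card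
          = ((univ.filter fun j : Fin n => ¬ t ≤ j.val).map Fin.valEmbedding).card := (card_map _).symm
        _ = (Finset.range t).card := by
            congr 1
            ext x
            simp only [mem_map, mem_filter, mem_univ, true_and, mem_range, not_le]
            constructor
            · rintro ⟨j, hj, rfl⟩
              exact hj
            · intro hx
              exact ⟨⟨x, by omega⟩, hx, rfl⟩
        _ = t := Finset.card_range _
  omega

theorem card_label {n : ℕ} (μ : Fin n → ℕ) (h : ∑ i, μ i = n) (a : Fin n) :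
    (univ.filter fun i : Fin n => compLabel μ i = a.val).card = μ a := by
  have h1 : (univ.filter fun i : Fin n => a.val ≤ compLabel μ i).card = n - ps μ a.val := by
    rw [← card_ge _ (ps_le μ h a.val)]
    congr 1
    apply Finset.filter_congr
    intro i _
    exact le_compLabel μ i a.2.le
  have h2 : (univ.filter fun i : Fin n => a.val + 1 ≤ compLabel μ i).card = n - ps μ (a.val + 1) := by
    rw [← card_ge _ (ps_le μ h (a.val + 1))]
    congr 1
    apply Finset.filter_congr
    intro i _
    exact le_compLabel μ i a.2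
  have h3 : (univ.filter fun i : Fin n => a.val ≤ compLabel μ i).card =
      (univ.filter fun i : Fin n => compLabel μ i = a.val).card + (univ.filter fun i : Fin n => a.val + 1 ≤ compLabel μ i).card := by
    rw [← Finset.card_union_of_disjoint]
    · congr 1
      ext i
      simp only [mem_filter, mem_univ, true_and, mem_union]
      omega
    · rw [Finset.disjoint_filter]
      intro i _ h1 h2
      omega
  have h4 := ps_succ μ a
  have h5 := ps_le μ h (a.val + 1)
  omega

/-! ### functions with equal fibres -/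

theorem exists_perm {α β : Type*} [Fintype α] [DecidableEq β] (f g : α → β)
    (h : ∀ b, (univ.filter fun x => f x = b).card = (univ.filter fun x => g x = b).card) :
    ∃ π : Equiv.Perm α, ∀ x, f (π x) = g x := by
  classical
  have h1 : ∀ b, Nonempty ({x // g x = b} ≃ {x // f x = b}) := by
    intro b
    refine Fintype.card_eq.mp ?_
    rw [Fintype.card_subtype, Fintype.card_subtype]
    exact (h b).symm
  let e := fun b => (h1 b).some
  let π : Equiv.Perm α := (Equiv.sigmaFiberEquiv g).symm.trans ((Equiv.sigmaCongrRight e).trans (Equiv.sigmaFiberEquiv f))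
  refine ⟨π, fun x => ?_⟩
  exact (e (g x) ⟨x, rfl⟩).2

theorem exists_equiv' {α γ β : Type*} [Fintype α] [Fintype γ] [DecidableEq β] (f : α → β) (g : γ → β)
    (h : ∀ b, (univ.filter fun x => f x = b).card = (univ.filter fun x => g x = b).card) :
    ∃ π : γ ≃ α, ∀ x, f (π x) = g x := by
  classical
  have h1 : ∀ b, Nonempty ({x // g x = b} ≃ {x // f x = b}) := by
    intro b
    refine Fintype.card_eq.mp ?_
    rw [Fintype.card_subtype, Fintype.card_subtype]
    exact (h b).symm
  let e := fun b => (h1 b).some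
  let π : γ ≃ α := (Equiv.sigmaFiberEquiv g).symm.trans ((Equiv.sigmaCongrRight e).trans (Equiv.sigmaFiberEquiv f))
  refine ⟨π, fun x => ?_⟩
  exact (e (g x) ⟨x, rfl⟩).2

/-- matrices with given row and column sums -/
abbrev NM {n : ℕ} (μ ν : Fin n → ℕ) : Type := {M : Fin n → Fin n → ℕ // (∀ a, ∑ b, M a b = μ a) ∧ (∀ b, ∑ a, M a b = ν b)}

/-- the count matrix -/
def cm {n : ℕ} (μ ν : Fin n → ℕ) (σ : Equiv.Perm (Fin n)) (a b : Fin n) : ℕ :=
  (univ.filter fun j : Fin n => compLabel μ (σ j) = a.val ∧ compLabel ν j = b.val).card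

theorem cm_row {n : ℕ} {μ ν : Fin n → ℕ} (hμ : ∑ i, μ i = n) (hν : ∑ i, ν i = n) (σ : Equiv.Perm (Fin n)) (a : Fin n) :
    ∑ b, cm μ ν σ a b = μ a := by
  unfold cm
  rw [← card_label μ hμ a]
  have h1 : (univ.filter fun i : Fin n => compLabel μ i = a.val).card =
      (univ.filter fun j : Fin n => compLabel μ (σ j) = a.val).card := by
    apply Finset.card_bij' (fun i _ => σ.symm i) (fun j _ => σ j)
    · intro i hi; simpa using hi
    · intro i hi; simpa using hi
    · intro i hi; simp
    · intro i hi; simp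
  rw [h1, Finset.card_eq_sum_card_fiberwise (f := fun j => (⟨compLabel ν j, compLabel_lt ν hν j⟩ : Fin n)) (t := univ)
    (fun _ _ => Finset.mem_coe.mpr (mem_univ _))]
  apply Finset.sum_congr rfl
  intro b _
  rw [Finset.filter_filter]
  congr 1
  apply Finset.filter_congr
  intro j _
  rw [Fin.ext_iff]

theorem cm_col {n : ℕ} {μ ν : Fin n → ℕ} (hμ : ∑ i, μ i = n) (hν : ∑ i, ν i = n) (σ : Equiv.Perm (Fin n)) (b : Fin n) :
    ∑ a, cm μ ν σ a b = ν b := by
  unfold cm
  rw [← card_label ν hν b]
  rw [Finset.card_eq_sum_card_fiberwise (f := fun j => (⟨compLabel μ (σ j), compLabel_lt μ hμ (σ j)⟩ : Fin n)) (t := univ)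
    (fun _ _ => Finset.mem_coe.mpr (mem_univ _))]
  apply Finset.sum_congr rfl
  intro a _
  rw [Finset.filter_filter]
  congr 1
  apply Finset.filter_congr
  intro j _
  rw [Fin.ext_iff]
  exact and_comm

theorem cm_eq_iff {n : ℕ} {μ ν : Fin n → ℕ} (hμ : ∑ i, μ i = n) (hν : ∑ i, ν i = n) (σ τ : Equiv.Perm (Fin n)) :
    cm μ ν σ = cm μ ν τ ↔ ∃ w ∈ youngSubgroup μ, ∃ w' ∈ youngSubgroup ν, τ = w * σ * w' := by
  constructor
  · intro h
    obtain ⟨π, hπ⟩ := exists_perm (fun j => (compLabel μ (σ j), compLabel ν j)) (fun j => (compLabel μ (τ j), compLabel ν j)) (by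
      rintro ⟨a, b⟩
      simp only [Prod.mk.injEq]
      by_cases hab : a < n ∧ b < n
      · exact congrFun (congrFun h ⟨a, hab.1⟩) ⟨b, hab.2⟩
      · rw [Finset.card_eq_zero.mpr, Finset.card_eq_zero.mpr]
        · apply Finset.filter_eq_empty_iff.mpr
          rintro j _ ⟨h1, h2⟩
          exact hab ⟨h1 ▸ compLabel_lt μ hμ _, h2 ▸ compLabel_lt ν hν _⟩
        · apply Finset.filter_eq_empty_iff.mpr
          rintro j _ ⟨h1, h2⟩
          exact hab ⟨h1 ▸ compLabel_lt μ hμ _, h2 ▸ compLabel_lt ν hν _⟩)
    simp only [Prod.mk.injEq] at hπ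
    refine ⟨τ * (σ * π)⁻¹, ?_, π, fun j => (hπ j).2, by group⟩
    intro i
    have := (hπ ((σ * π)⁻¹ i)).1
    rw [Equiv.Perm.mul_apply, ← this]
    congr 1
    exact Equiv.apply_symm_apply (σ * π) i
  · rintro ⟨w, hw, w', hw', rfl⟩
    funext a b
    unfold cm
    apply Finset.card_bij' (fun i _ => w'.symm i) (fun j _ => w' j)
    · intro i hi
      simp only [mem_filter, mem_univ, true_and] at hi ⊢
      rw [Equiv.Perm.mul_apply, Equiv.Perm.mul_apply, hw, Equiv.apply_symm_apply, ← hw' (w'.symm i), Equiv.apply_symm_apply]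
      exact hi
    · intro i hi
      simp only [mem_filter, mem_univ, true_and] at hi ⊢
      rw [Equiv.Perm.mul_apply, Equiv.Perm.mul_apply, hw] at hi
      rw [hw' i]
      exact hi
    · intro i hi; simp
    · intro i hi; simp

theorem cm_surj {n : ℕ} {μ ν : Fin n → ℕ} (hμ : ∑ i, μ i = n) (hν : ∑ i, ν i = n) (M : Fin n → Fin n → ℕ)
    (hM : ∀ a, ∑ b, M a b = μ a) (hM' : ∀ b, ∑ a, M a b = ν b) : ∃ σ : Equiv.Perm (Fin n), cm μ ν σ = M := by
  classical
  let T := (a : Fin n) × (b : Fin n) × Fin (M a b)
  have key : ∀ a b : Fin n, (univ.filter fun t : T => t.1 = a ∧ t.2.1 = b).card = M a b := by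
    intro a b
    have : (univ.filter fun t : T => t.1 = a ∧ t.2.1 = b) =
        (univ : Finset (Fin (M a b))).map ⟨fun k => (⟨a, b, k⟩ : T), fun k l h => by
          simpa using h⟩ := by
      ext ⟨x, y, k⟩
      simp only [mem_filter, mem_univ, true_and, mem_map, Function.Embedding.coeFn_mk]
      constructor
      · rintro ⟨rfl, rfl⟩
        exact ⟨k, rfl⟩
      · rintro ⟨k', hk'⟩
        cases hk'
        exact ⟨rfl, rfl⟩
    rw [this, card_map, card_univ, Fintype.card_fin]
  have hrow : ∀ a : Fin n, (univ.filter fun t : T => t.1 = a).card = μ a := by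
    intro a
    rw [← hM a, Finset.card_eq_sum_card_fiberwise (f := fun t : T => t.2.1) (t := univ) (fun _ _ => Finset.mem_coe.mpr (mem_univ _))]
    apply Finset.sum_congr rfl
    intro b _
    rw [Finset.filter_filter, key]
  have hcol : ∀ b : Fin n, (univ.filter fun t : T => t.2.1 = b).card = ν b := by
    intro b
    rw [← hM' b, Finset.card_eq_sum_card_fiberwise (f := fun t : T => t.1) (t := univ) (fun _ _ => Finset.mem_coe.mpr (mem_univ _))]
    apply Finset.sum_congr rfl
    intro a _
    rw [Finset.filter_filter, ← key a b]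
    congr 1
    apply Finset.filter_congr
    intro t _
    exact and_comm
  obtain ⟨φ, hφ⟩ := exists_equiv' (fun j : Fin n => (⟨compLabel μ j, compLabel_lt μ hμ j⟩ : Fin n)) (fun t : T => t.1) (by
    intro a
    rw [hrow a, ← card_label μ hμ a]
    congr 1
    apply Finset.filter_congr
    intro j _
    rw [Fin.ext_iff])
  obtain ⟨ψ, hψ⟩ := exists_equiv' (fun j : Fin n => (⟨compLabel ν j, compLabel_lt ν hν j⟩ : Fin n)) (fun t : T => t.2.1) (by
    intro b
    rw [hcol b, ← card_label ν hν b]
    congr 1
    apply Finset.filter_congr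
    intro j _
    rw [Fin.ext_iff])
  refine ⟨ψ.symm.trans φ, ?_⟩
  funext a b
  rw [← key a b]
  unfold cm
  apply Finset.card_bij' (fun i _ => ψ.symm i) (fun t _ => ψ t)
  · intro i hi
    simp only [mem_filter, mem_univ, true_and] at hi ⊢
    constructor
    · rw [← hφ (ψ.symm i)]
      exact Fin.ext hi.1
    · rw [← hψ (ψ.symm i)]
      simp only [Equiv.apply_symm_apply]
      exact Fin.ext hi.2
  · intro t ht
    simp only [mem_filter, mem_univ, true_and] at ht ⊢
    constructor
    · have := hφ t
      simp only [Equiv.trans_apply, Equiv.symm_apply_apply]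
      rw [Fin.ext_iff] at this
      rw [← ht.1]
      exact this
    · have := hψ t
      rw [Fin.ext_iff] at this
      rw [← ht.2]
      exact this
  · intro i hi; simp
  · intro i hi; simp

/-! ### orbits on pairs -/

theorem orb {G : Type*} [Group G] [Finite G] (P Q : Subgroup G) {X : Type*} (D : G → X) (hs : Function.Surjective D)
    (hD : ∀ g h, D g = D h ↔ ∃ p ∈ P, ∃ q ∈ Q, h = p * g * q) :
    Nat.card (MulAction.orbitRel.Quotient G ((G ⧸ P) × (G ⧸ Q))) = Nat.card X := by
  have hinv : ∀ g, ∀ p ∈ P, ∀ q ∈ Q, D (p * g * q) = D g := fun g p hp q hq => ((hD g _).mpr ⟨p, hp, q, hq, rfl⟩).symm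
  let f0 : (G ⧸ P) × (G ⧸ Q) → X := fun z => D (z.1.out⁻¹ * z.2.out)
  have hf0 : ∀ x y : G, f0 ((x : G ⧸ P), (y : G ⧸ Q)) = D (x⁻¹ * y) := by
    intro x y
    obtain ⟨p, hp⟩ := QuotientGroup.mk_out_eq_mul P x
    obtain ⟨q, hq⟩ := QuotientGroup.mk_out_eq_mul Q y
    show D (((x : G ⧸ P)).out⁻¹ * ((y : G ⧸ Q)).out) = _
    rw [hp, hq, ← hinv (x⁻¹ * y) (p : G)⁻¹ (P.inv_mem p.2) q q.2]
    congr 1
    group
  have hf1 : ∀ (g : G) (z : (G ⧸ P) × (G ⧸ Q)), f0 (g • z) = f0 z := by
    rintro g ⟨x, y⟩
    induction x using QuotientGroup.induction_on with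
    | H x =>
      induction y using QuotientGroup.induction_on with
      | H y =>
        have : g • ((x : G ⧸ P), (y : G ⧸ Q)) = (((g * x : G) : G ⧸ P), ((g * y : G) : G ⧸ Q)) := rfl
        rw [this, hf0, hf0]
        congr 1
        group
  let f : MulAction.orbitRel.Quotient G ((G ⧸ P) × (G ⧸ Q)) → X := Quotient.lift f0 (by
    rintro z z' ⟨g, hg⟩
    rw [← hg]
    exact hf1 g z')
  refine Nat.card_congr (Equiv.ofBijective f ⟨?_, ?_⟩)
  · intro u v
    induction u using Quotient.inductionOn with
    | h u =>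
      induction v using Quotient.inductionOn with
      | h v =>
        obtain ⟨x, y⟩ := u
        obtain ⟨x', y'⟩ := v
        induction x using QuotientGroup.induction_on with
        | H x =>
        induction y using QuotientGroup.induction_on with
        | H y =>
        induction x' using QuotientGroup.induction_on with
        | H x' =>
        induction y' using QuotientGroup.induction_on with
        | H y' =>
        intro h
        change f0 _ = f0 _ at h
        rw [hf0, hf0] at h
        obtain ⟨p, hp, q, hq, e⟩ := (hD _ _).mp h.symm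
        apply Quotient.sound
        refine ⟨x * p * x'⁻¹, ?_⟩
        show (((x * p * x'⁻¹ * x' : G) : G ⧸ P), ((x * p * x'⁻¹ * y' : G) : G ⧸ Q)) = _
        congr 1
        · rw [QuotientGroup.eq]
          have : (x * p * x'⁻¹ * x')⁻¹ * x = p⁻¹ := by group
          rw [this]
          exact P.inv_mem hp
        · rw [QuotientGroup.eq]
          have : (x * p * x'⁻¹ * y')⁻¹ * y = (p * (x'⁻¹ * y'))⁻¹ * (x⁻¹ * y) := by group
          rw [this, e]
          have : (p * (x'⁻¹ * y'))⁻¹ * (p * (x'⁻¹ * y') * q) = q := by group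
          rw [this]
          exact hq
  · intro c
    obtain ⟨g, rfl⟩ := hs c
    refine ⟨Quotient.mk _ (((1 : G) : G ⧸ P), ((g : G) : G ⧸ Q)), ?_⟩
    show f0 _ = _
    rw [hf0, inv_one, one_mul]

theorem burnside_pair {G : Type*} [Group G] [Fintype G] (P Q : Subgroup G) :
    (Nat.card G : ℂ)⁻¹ * ∑ g : G, fixedPointCharacter P g * fixedPointCharacter Q g =
      Nat.card (MulAction.orbitRel.Quotient G ((G ⧸ P) × (G ⧸ Q))) := by
  classical
  haveI : Fintype (G ⧸ P) := Fintype.ofFinite _
  haveI : Fintype (G ⧸ Q) := Fintype.ofFinite _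
  haveI : Fintype (MulAction.orbitRel.Quotient G ((G ⧸ P) × (G ⧸ Q))) := Fintype.ofFinite _
  haveI : ∀ g : G, Fintype (MulAction.fixedBy ((G ⧸ P) × (G ⧸ Q)) g) := fun g => Fintype.ofFinite _
  have h := MulAction.sum_card_fixedBy_eq_card_orbits_mul_card_group G ((G ⧸ P) × (G ⧸ Q))
  have h1 : ∀ g : G, fixedPointCharacter P g * fixedPointCharacter Q g =
      ((Fintype.card (MulAction.fixedBy ((G ⧸ P) × (G ⧸ Q)) g) : ℕ) : ℂ) := by
    intro g
    unfold fixedPointCharacter
    rw [← Nat.cast_mul, ← Nat.card_prod, ← Nat.card_eq_fintype_card]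
    congr 1
    apply Nat.card_congr
    refine ⟨fun z => ⟨(z.1.1, z.2.1), ?_⟩, fun z => (⟨z.1.1, ?_⟩, ⟨z.1.2, ?_⟩), ?_, ?_⟩
    · rw [MulAction.mem_fixedBy]
      exact Prod.ext z.1.2 z.2.2
    · exact congrArg Prod.fst z.2
    · exact congrArg Prod.snd z.2
    · intro z; rfl
    · intro z; rfl
  rw [Finset.sum_congr rfl (fun g _ => h1 g), ← Nat.cast_sum, h, Nat.cast_mul, Nat.card_eq_fintype_card, Nat.card_eq_fintype_card]
  have : ((Fintype.card G : ℕ) : ℂ) ≠ 0 := by
    exact_mod_cast Fintype.card_ne_zero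
  field_simp

theorem inner_young {n : ℕ} {μ ν : Fin n → ℕ} (hμ : ∑ i, μ i = n) (hν : ∑ i, ν i = n) :
    (Nat.card (Equiv.Perm (Fin n)) : ℂ)⁻¹ * ∑ σ : Equiv.Perm (Fin n),
        fixedPointCharacter (youngSubgroup μ) σ * fixedPointCharacter (youngSubgroup ν) σ = Nat.card (NM μ ν) := by
  rw [burnside_pair]
  congr 1
  refine orb _ _ (fun σ => (⟨cm μ ν σ, cm_row hμ hν σ, cm_col hμ hν σ⟩ : NM μ ν)) ?_ ?_
  · rintro ⟨M, hM, hM'⟩
    obtain ⟨σ, hσ⟩ := cm_surj hμ hν M hM hM'
    exact ⟨σ, Subtype.ext hσ⟩
  · intro σ τ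
    rw [Subtype.ext_iff]
    exact cm_eq_iff hμ hν σ τ

end CfsgLib.Unip
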