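import Cfsg.Agent.LibUnipA

set_option autoImplicit false

/-! Bruhat decomposition of `GL_n` and double cosets of parabolic subgroups -/

namespace CfsgLib.Unip

open Finset Cfsg Matrix

open scoped MatrixGroups

section

variable {n : ℕ} {F : Type*} [Field F]

/-- the elementary unit `1 + u w^T` with `w·u = 0` -/
def tv (u w : Fin n → F) (h : w ⬝ᵥ u = 0) : GL (Fin n) F where
  val := 1 + vecMulVec u w
  inv := 1 - vecMulVec u w
  val_inv := by
    have : vecMulVec u w * vecMulVec u w = 0 := by
      rw [vecMulVec_mul_vecMulVec, h]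
      simp
    noncomm_ring
    rw [this]
    simp
  inv_val := by
    have : vecMulVec u w * vecMulVec u w = 0 := by
      rw [vecMulVec_mul_vecMulVec, h]
      simp
    noncomm_ring
    rw [this]
    simp

theorem tv_apply (u w : Fin n → F) (h : w ⬝ᵥ u = 0) (a b : Fin n) :
    (tv u w h : Matrix (Fin n) (Fin n) F) a b = (1 : Matrix (Fin n) (Fin n) F) a b + u a * w b := rfl

theorem tv_mul_apply (u w : Fin n → F) (h : w ⬝ᵥ u = 0) (m : Matrix (Fin n) (Fin n) F) (a b : Fin n) :
    ((tv u w h : Matrix (Fin n) (Fin n) F) * m) a b = m a b + u a * ∑ k, w k * m k b := by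
  have : (tv u w h : Matrix (Fin n) (Fin n) F) = 1 + vecMulVec u w := rfl
  rw [this, Matrix.add_mul, Matrix.one_mul, Matrix.add_apply]
  congr 1
  rw [Matrix.mul_apply, Finset.mul_sum]
  apply Finset.sum_congr rfl
  intro k _
  rw [vecMulVec_apply]; ring

theorem mul_tv_apply (u w : Fin n → F) (h : w ⬝ᵥ u = 0) (m : Matrix (Fin n) (Fin n) F) (a b : Fin n) :
    (m * (tv u w h : Matrix (Fin n) (Fin n) F)) a b = m a b + (∑ k, m a k * u k) * w b := by
  have : (tv u w h : Matrix (Fin n) (Fin n) F) = 1 + vecMulVec u w := rfl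
  rw [this, Matrix.mul_add, Matrix.mul_one, Matrix.add_apply]
  congr 1
  rw [Matrix.mul_apply, Finset.sum_mul]
  apply Finset.sum_congr rfl
  intro k _
  rw [vecMulVec_apply]; ring

/-- the permutation matrix homomorphism -/
def pmHom (n : ℕ) (F : Type*) [Field F] : Equiv.Perm (Fin n) →* Matrix (Fin n) (Fin n) F where
  toFun σ := Matrix.of fun i j => if i = σ j then 1 else 0
  map_one' := by
    ext i j
    rw [Matrix.one_apply, Matrix.of_apply, Equiv.Perm.one_apply]
  map_mul' σ τ := by
    ext i j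
    rw [Matrix.mul_apply]
    simp only [Matrix.of_apply]
    rw [Finset.sum_eq_single (τ j)]
    · rw [if_pos rfl, mul_one, Equiv.Perm.mul_apply]
    · intro k _ hk
      simp [hk]
    · simp

/-- permutation matrices as elements of `GL_n` -/
def pm (n : ℕ) (F : Type*) [Field F] : Equiv.Perm (Fin n) →* GL (Fin n) F := (pmHom n F).toHomUnits

theorem pm_apply (σ : Equiv.Perm (Fin n)) (i j : Fin n) :
    (pm n F σ : Matrix (Fin n) (Fin n) F) i j = if i = σ j then 1 else 0 := rfl

/-- `k` columns are clean -/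
def Clean (k : ℕ) (h : Matrix (Fin n) (Fin n) F) : Prop :=
  ∃ s : Fin n → Fin n, ∀ j : Fin n, j.val < k →
    h (s j) j ≠ 0 ∧ (∀ i, i ≠ s j → h i j = 0) ∧ (∀ j', j' ≠ j → h (s j) j' = 0)

theorem clean_step {k : ℕ} (hk : k < n) (h : GL (Fin n) F) (hc : Clean k (h : Matrix (Fin n) (Fin n) F)) :
    ∃ b ∈ upperTriangularGL n F, ∃ b' ∈ upperTriangularGL n F,
      Clean (k + 1) ((b * h * b' : GL (Fin n) F) : Matrix (Fin n) (Fin n) F) := by
  classical
  obtain ⟨s, hs⟩ := hc
  let κ : Fin n := ⟨k, hk⟩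
  have hne : ∃ i, (h : Matrix (Fin n) (Fin n) F) i κ ≠ 0 := by
    by_contra hcon
    push Not at hcon
    have hdet : (h : Matrix (Fin n) (Fin n) F).det = 0 := Matrix.det_eq_zero_of_column_eq_zero κ hcon
    have : IsUnit (h : Matrix (Fin n) (Fin n) F).det := (Matrix.isUnit_iff_isUnit_det _).mp h.isUnit
    rw [hdet] at this
    exact not_isUnit_zero this
  obtain ⟨i, hi, himax⟩ : ∃ i, (h : Matrix (Fin n) (Fin n) F) i κ ≠ 0 ∧ ∀ i', i < i' → (h : Matrix (Fin n) (Fin n) F) i' κ = 0 := by
    obtain ⟨i0, hi0⟩ := hne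
    have hS : (univ.filter fun i => (h : Matrix (Fin n) (Fin n) F) i κ ≠ 0).Nonempty := ⟨i0, by simpa using hi0⟩
    refine ⟨_, (Finset.mem_filter.mp (Finset.max'_mem _ hS)).2, ?_⟩
    intro i' hi'
    by_contra hh
    have := Finset.le_max' (univ.filter fun i => (h : Matrix (Fin n) (Fin n) F) i κ ≠ 0) i' (by simpa using hh)
    exact absurd hi' (not_lt.mpr this)
  have his : ∀ j : Fin n, j.val < k → i ≠ s j := by
    intro j hj e
    have := (hs j hj).2.2 κ (by intro e; rw [← e] at hj; simp [κ] at hj)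
    rw [← e] at this
    exact hi this
  let u : Fin n → F := fun a => if a < i then -(h : Matrix (Fin n) (Fin n) F) a κ / (h : Matrix (Fin n) (Fin n) F) i κ else 0
  let w : Fin n → F := fun b => if κ < b then -(h : Matrix (Fin n) (Fin n) F) i b / (h : Matrix (Fin n) (Fin n) F) i κ else 0
  have hui : u i = 0 := by simp [u]
  have hwk : w κ = 0 := by simp [w]
  have h1 : (Pi.single i (1 : F) : Fin n → F) ⬝ᵥ u = 0 := by
    simp [hui]
  have h2 : w ⬝ᵥ (Pi.single κ (1 : F) : Fin n → F) = 0 := by
    simp [hwk]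
  refine ⟨tv u (Pi.single i 1) h1, ?_, tv (Pi.single κ 1) w h2, ?_, ?_⟩
  · change ((tv u (Pi.single i 1) h1 : GL (Fin n) F) : Matrix (Fin n) (Fin n) F).BlockTriangular id
    intro a b hab
    simp only [id] at hab
    rw [tv_apply, Matrix.one_apply_ne (ne_of_gt hab), zero_add]
    by_cases hb : b = i
    · subst hb
      simp [u, not_lt_of_gt hab]
    · simp [Pi.single_eq_of_ne hb]
  · change ((tv (Pi.single κ 1) w h2 : GL (Fin n) F) : Matrix (Fin n) (Fin n) F).BlockTriangular id
    intro a b hab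
    simp only [id] at hab
    rw [tv_apply, Matrix.one_apply_ne (ne_of_gt hab), zero_add]
    by_cases ha : a = κ
    · subst ha
      simp [w, not_lt_of_gt hab]
    · simp [Pi.single_eq_of_ne ha]
  · have hm : ∀ a b, ((tv u (Pi.single i 1) h1 * h * tv (Pi.single κ 1) w h2 : GL (Fin n) F) : Matrix (Fin n) (Fin n) F) a b =
        ((h : Matrix (Fin n) (Fin n) F) a b + u a * (h : Matrix (Fin n) (Fin n) F) i b) +
        ((h : Matrix (Fin n) (Fin n) F) a κ + u a * (h : Matrix (Fin n) (Fin n) F) i κ) * w b := by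
      intro a b
      rw [Units.val_mul, Units.val_mul, mul_tv_apply]
      have e1 : ∀ c, ((tv u (Pi.single i 1) h1 : Matrix (Fin n) (Fin n) F) * (h : Matrix (Fin n) (Fin n) F)) a c =
          (h : Matrix (Fin n) (Fin n) F) a c + u a * (h : Matrix (Fin n) (Fin n) F) i c := by
        intro c
        rw [tv_mul_apply]
        congr 2
        rw [Finset.sum_eq_single i]
        · simp
        · intro k _ hk
          simp [Pi.single_eq_of_ne hk]
        · simp
      rw [e1]
      congr 2
      rw [Finset.sum_eq_single κ]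
      · rw [e1]; simp
      · intro k _ hk
        simp [Pi.single_eq_of_ne hk]
      · simp
    have hcolk : ∀ a, a ≠ i → (h : Matrix (Fin n) (Fin n) F) a κ + u a * (h : Matrix (Fin n) (Fin n) F) i κ = 0 := by
      intro a ha
      rcases lt_or_gt_of_ne ha with h' | h'
      · simp only [u, h', if_true]
        field_simp
        ring
      · rw [himax a h']
        simp [u, not_lt_of_gt h']
    have hrowi : ∀ b : Fin n, b.val < k → (h : Matrix (Fin n) (Fin n) F) i b = 0 := fun b hb => (hs b hb).2.1 i (his b hb)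
    refine ⟨Function.update s κ i, ?_⟩
    intro j hj
    by_cases hjk : j = κ
    · subst hjk
      rw [Function.update_self]
      refine ⟨?_, ?_, ?_⟩
      · rw [hm, hui, hwk]
        simpa using hi
      · intro a ha
        rw [hm, hwk, mul_zero, add_zero]
        exact hcolk a ha
      · intro b hb
        rw [hm, hui, zero_mul, add_zero, zero_mul, add_zero]
        rcases lt_or_gt_of_ne hb with h' | h'
        · rw [hrowi b h']
          simp [w, not_lt_of_gt h']
        · simp only [w, h', if_true]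
          field_simp
          ring
    · have hj' : j.val < k := by
        have : j.val ≠ k := fun e => hjk (Fin.ext e)
        omega
      rw [Function.update_of_ne hjk]
      obtain ⟨g1, g2, g3⟩ := hs j hj'
      have hwj : w j = 0 := by
        have : ¬ κ < j := by
          rw [Fin.lt_def]
          show ¬ k < j.val
          omega
        simp [w, this]
      have husj : u (s j) = 0 := by
        have := g3 κ (Ne.symm hjk)
        simp [u, this]
      refine ⟨?_, ?_, ?_⟩
      · rw [hm, husj, hwj]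
        simpa using g1
      · intro a ha
        rw [hm, hwj, hrowi j hj', g2 a ha]
        simp
      · intro b hb
        rw [hm, husj, g3 b hb, g3 κ (Ne.symm hjk)]
        simp

theorem exists_clean (g : GL (Fin n) F) (k : ℕ) (hk : k ≤ n) :
    ∃ b ∈ upperTriangularGL n F, ∃ b' ∈ upperTriangularGL n F,
      Clean k ((b * g * b' : GL (Fin n) F) : Matrix (Fin n) (Fin n) F) := by
  induction k with
  | zero =>
    refine ⟨1, Subgroup.one_mem _, 1, Subgroup.one_mem _, ⟨id, fun j hj => ?_⟩⟩
    omega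
  | succ k ih =>
    obtain ⟨b, hb, b', hb', hc⟩ := ih (by omega)
    obtain ⟨c, hc1, c', hc', hh⟩ := clean_step (by omega) _ hc
    refine ⟨c * b, Subgroup.mul_mem _ hc1 hb, b' * c', Subgroup.mul_mem _ hb' hc', ?_⟩
    have : c * b * g * (b' * c') = c * (b * g * b') * c' := by group
    rw [this]
    exact hh

theorem bruhat (g : GL (Fin n) F) :
    ∃ b ∈ upperTriangularGL n F, ∃ b' ∈ upperTriangularGL n F, ∃ σ : Equiv.Perm (Fin n), g = b * pm n F σ * b' := by
  classical
  obtain ⟨b, hb, b', hb', s, hs⟩ := exists_clean g n le_rfl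
  have hinj : Function.Injective s := by
    intro j j' e
    by_contra hne
    have h1 := (hs j j.2).2.2 j' (Ne.symm hne)
    rw [e] at h1
    exact (hs j' j'.2).1 h1
  let σ : Equiv.Perm (Fin n) := Equiv.ofBijective s (Finite.injective_iff_bijective.mp hinj)
  let d : Fin n → Fˣ := fun j => Units.mk0 _ (hs j j.2).1
  let D : GL (Fin n) F := ⟨Matrix.diagonal fun j => (d j : F), Matrix.diagonal fun j => ((d j)⁻¹ : Fˣ),
    by rw [Matrix.diagonal_mul_diagonal]; simp, by rw [Matrix.diagonal_mul_diagonal]; simp⟩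
  have hD : D ∈ upperTriangularGL n F := by
    change ((D : GL (Fin n) F) : Matrix (Fin n) (Fin n) F).BlockTriangular id
    exact Matrix.blockTriangular_diagonal _
  have e : b * g * b' = pm n F σ * D := by
    apply Units.ext
    ext i j
    rw [Units.val_mul (pm n F σ) D]
    change _ = ((pm n F σ : Matrix (Fin n) (Fin n) F) * Matrix.diagonal fun j => (d j : F)) i j
    rw [Matrix.mul_diagonal, pm_apply]
    by_cases hij : i = σ j
    · rw [if_pos hij, one_mul]
      show _ = ((b * g * b' : GL (Fin n) F) : Matrix (Fin n) (Fin n) F) (s j) j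
      rw [hij]
      rfl
    · rw [if_neg hij, zero_mul]
      exact (hs j j.2).2.1 i hij
  refine ⟨b⁻¹, Subgroup.inv_mem _ hb, D * b'⁻¹, Subgroup.mul_mem _ hD (Subgroup.inv_mem _ hb'), σ, ?_⟩
  calc g = b⁻¹ * (b * g * b') * b'⁻¹ := by group
    _ = b⁻¹ * pm n F σ * (D * b'⁻¹) := by rw [e]; group

theorem borel_le (μ : Fin n → ℕ) : upperTriangularGL n F ≤ parabolicGL n F μ := by
  intro g hg
  change ((g : GL (Fin n) F) : Matrix (Fin n) (Fin n) F).BlockTriangular (compLabel μ)
  intro i j hij
  have hg' : ((g : GL (Fin n) F) : Matrix (Fin n) (Fin n) F).BlockTriangular id := hg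
  apply hg'
  by_contra hc
  have : i ≤ j := not_lt.mp hc
  exact absurd hij (not_lt.mpr (compLabel_mono μ this))

theorem pm_mem {μ : Fin n → ℕ} {σ : Equiv.Perm (Fin n)} (h : σ ∈ youngSubgroup μ) : pm n F σ ∈ parabolicGL n F μ := by
  change ((pm n F σ : GL (Fin n) F) : Matrix (Fin n) (Fin n) F).BlockTriangular (compLabel μ)
  intro i j hij
  rw [pm_apply, if_neg]
  rintro rfl
  rw [h j] at hij
  exact lt_irrefl _ hij

/-- the coordinate subspace -/
def EE (F : Type*) [Field F] (μ : Fin n → ℕ) (a : ℕ) : Set (Fin n → F) := {v | ∀ i, a ≤ compLabel μ i → v i = 0}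

theorem EE_mem {μ : Fin n → ℕ} {p : GL (Fin n) F} (hp : p ∈ parabolicGL n F μ) (a : ℕ) {v : Fin n → F}
    (hv : v ∈ EE F μ a) : (p : Matrix (Fin n) (Fin n) F).mulVec v ∈ EE F μ a := by
  have hp' : ((p : GL (Fin n) F) : Matrix (Fin n) (Fin n) F).BlockTriangular (compLabel μ) := hp
  intro i hi
  rw [Matrix.mulVec, dotProduct]
  apply Finset.sum_eq_zero
  intro k _
  by_cases hk : a ≤ compLabel μ k
  · rw [hv k hk, mul_zero]
  · rw [hp' (by omega : compLabel μ k < compLabel μ i), zero_mul]

theorem EE_mem_iff {μ : Fin n → ℕ} {p : GL (Fin n) F} (hp : p ∈ parabolicGL n F μ) (a : ℕ) {v : Fin n → F} :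
    (p : Matrix (Fin n) (Fin n) F).mulVec v ∈ EE F μ a ↔ v ∈ EE F μ a := by
  refine ⟨fun h => ?_, EE_mem hp a⟩
  have := EE_mem (Subgroup.inv_mem _ hp) a h
  rw [Matrix.mulVec_mulVec, ← Units.val_mul, inv_mul_cancel, Units.val_one, Matrix.one_mulVec] at this
  exact this

/-- the counting invariant -/
noncomputable def cg (μ ν : Fin n → ℕ) (g : GL (Fin n) F) (a b : ℕ) : ℕ :=
  Nat.card {v : Fin n → F // (g : Matrix (Fin n) (Fin n) F).mulVec v ∈ EE F μ a ∧ v ∈ EE F ν b}

theorem cg_inv (μ ν : Fin n → ℕ) (g : GL (Fin n) F) {p q : GL (Fin n) F} (hp : p ∈ parabolicGL n F μ)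
    (hq : q ∈ parabolicGL n F ν) : cg μ ν (p * g * q) = cg μ ν g := by
  funext a b
  unfold cg
  have hqq : ∀ v : Fin n → F, (q : Matrix (Fin n) (Fin n) F).mulVec (((q⁻¹ : GL (Fin n) F) : Matrix (Fin n) (Fin n) F).mulVec v) = v := by
    intro v
    rw [Matrix.mulVec_mulVec, ← Units.val_mul, mul_inv_cancel, Units.val_one, Matrix.one_mulVec]
  have hqq' : ∀ v : Fin n → F, ((q⁻¹ : GL (Fin n) F) : Matrix (Fin n) (Fin n) F).mulVec ((q : Matrix (Fin n) (Fin n) F).mulVec v) = v := by
    intro v
    rw [Matrix.mulVec_mulVec, ← Units.val_mul, inv_mul_cancel, Units.val_one, Matrix.one_mulVec]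
  have hsplit : ∀ v : Fin n → F, ((p * g * q : GL (Fin n) F) : Matrix (Fin n) (Fin n) F).mulVec v =
      (p : Matrix (Fin n) (Fin n) F).mulVec ((g : Matrix (Fin n) (Fin n) F).mulVec ((q : Matrix (Fin n) (Fin n) F).mulVec v)) := by
    intro v
    rw [Matrix.mulVec_mulVec, Matrix.mulVec_mulVec, Units.val_mul, Units.val_mul, Matrix.mul_assoc]
  apply Nat.card_congr
  refine ⟨fun v => ⟨(q : Matrix (Fin n) (Fin n) F).mulVec v.1, ?_, ?_⟩, fun v => ⟨((q⁻¹ : GL (Fin n) F) : Matrix (Fin n) (Fin n) F).mulVec v.1, ?_, ?_⟩, ?_, ?_⟩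
  · have := v.2.1
    rw [hsplit, EE_mem_iff hp] at this
    exact this
  · exact EE_mem hq b v.2.2
  · rw [hsplit, EE_mem_iff hp, hqq]
    exact v.2.1
  · exact EE_mem (Subgroup.inv_mem _ hq) b v.2.2
  · intro v
    exact Subtype.ext (hqq' v.1)
  · intro v
    exact Subtype.ext (hqq v.1)

theorem card_supp [Fintype F] (P : Fin n → Prop) [DecidablePred P] :
    Nat.card {v : Fin n → F // ∀ j, ¬ P j → v j = 0} = Fintype.card F ^ (univ.filter P).card := by
  classical
  have e : {v : Fin n → F // ∀ j, ¬ P j → v j = 0} ≃ ({j // P j} → F) :=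
    ⟨fun v j => v.1 j.1, fun w => ⟨fun j => if h : P j then w ⟨j, h⟩ else 0, fun j hj => by simp [hj]⟩,
      fun v => by
        apply Subtype.ext
        funext j
        by_cases hj : P j
        · simp [hj]
        · simp [hj, v.2 j hj],
      fun w => by
        funext j
        simp [j.2]⟩
  rw [Nat.card_congr e, Nat.card_eq_fintype_card, Fintype.card_fun, Fintype.card_subtype]

theorem pm_mulVec (σ : Equiv.Perm (Fin n)) (v : Fin n → F) (j : Fin n) :
    (pm n F σ : Matrix (Fin n) (Fin n) F).mulVec v (σ j) = v j := by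
  rw [Matrix.mulVec, dotProduct, Finset.sum_eq_single j]
  · rw [pm_apply, if_pos rfl, one_mul]
  · intro k _ hk
    rw [pm_apply, if_neg, zero_mul]
    intro e
    exact hk (σ.injective e).symm
  · simp

theorem cg_pm [Fintype F] (μ ν : Fin n → ℕ) (σ : Equiv.Perm (Fin n)) (a b : ℕ) :
    cg μ ν (pm n F σ) a b = Fintype.card F ^ (univ.filter fun j => compLabel μ (σ j) < a ∧ compLabel ν j < b).card := by
  rw [← card_supp]
  unfold cg
  apply Nat.card_congr
  apply Equiv.subtypeEquivRight
  intro v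
  constructor
  · rintro ⟨h1, h2⟩ j hj
    by_cases hb : b ≤ compLabel ν j
    · exact h2 j hb
    · have ha : a ≤ compLabel μ (σ j) := by
        by_contra hc
        exact hj ⟨by omega, by omega⟩
      rw [← pm_mulVec σ v j]
      exact h1 _ ha
  · intro h
    refine ⟨?_, fun j hj => h j (by omega)⟩
    intro i hi
    obtain ⟨j, rfl⟩ := σ.surjective i
    rw [pm_mulVec]
    exact h j (by omega)

theorem count_ie (x y : Fin n → ℕ) (a b : ℕ) :
    (univ.filter fun j => x j = a ∧ y j = b).card + (univ.filter fun j => x j < a ∧ y j < b + 1).card +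
      (univ.filter fun j => x j < a + 1 ∧ y j < b).card =
    (univ.filter fun j => x j < a + 1 ∧ y j < b + 1).card + (univ.filter fun j => x j < a ∧ y j < b).card := by
  have h1 := Finset.card_union_add_card_inter (univ.filter fun j => x j < a ∧ y j < b + 1) (univ.filter fun j => x j < a + 1 ∧ y j < b)
  have h2 : (univ.filter fun j => x j < a ∧ y j < b + 1) ∩ (univ.filter fun j => x j < a + 1 ∧ y j < b) =
      univ.filter fun j => x j < a ∧ y j < b := by
    ext j
    simp only [mem_inter, mem_filter, mem_univ, true_and]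
    omega
  have h3 : (univ.filter fun j => x j < a + 1 ∧ y j < b + 1).card = (univ.filter fun j => x j = a ∧ y j = b).card +
      ((univ.filter fun j => x j < a ∧ y j < b + 1) ∪ (univ.filter fun j => x j < a + 1 ∧ y j < b)).card := by
    rw [← Finset.card_union_of_disjoint]
    · congr 1
      ext j
      simp only [mem_union, mem_filter, mem_univ, true_and]
      omega
    · rw [Finset.disjoint_left]
      intro j hj
      simp only [mem_union, mem_filter, mem_univ, true_and] at hj ⊢
      omega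
  rw [h2] at h1
  omega

theorem cm_of_cg [Fintype F] (μ ν : Fin n → ℕ) (σ τ : Equiv.Perm (Fin n))
    (h : cg μ ν (pm n F σ) = cg μ ν (pm n F τ)) : cm μ ν σ = cm μ ν τ := by
  have h' : ∀ a b, (univ.filter fun j => compLabel μ (σ j) < a ∧ compLabel ν j < b).card =
      (univ.filter fun j => compLabel μ (τ j) < a ∧ compLabel ν j < b).card := by
    intro a b
    have := congrFun (congrFun h a) b
    rw [cg_pm, cg_pm] at this
    exact Nat.pow_right_injective (Fintype.one_lt_card (α := F)) this
  funext a b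
  have h1 := count_ie (fun j => compLabel μ (σ j)) (compLabel ν) a.val b.val
  have h2 := count_ie (fun j => compLabel μ (τ j)) (compLabel ν) a.val b.val
  rw [h', h', h', h'] at h1
  unfold cm
  omega

theorem inner_par [Fintype F] [DecidableEq F] {μ ν : Fin n → ℕ} (hμ : ∑ i, μ i = n) (hν : ∑ i, ν i = n) :
    (Nat.card (GL (Fin n) F) : ℂ)⁻¹ * ∑ g : GL (Fin n) F,
        fixedPointCharacter (parabolicGL n F μ) g * fixedPointCharacter (parabolicGL n F ν) g = Nat.card (NM μ ν) := by
  rw [burnside_pair]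
  congr 1
  choose b hb b' hb' s hs using fun g : GL (Fin n) F => bruhat g
  have hcg : ∀ g, cg μ ν g = cg μ ν (pm n F (s g)) := by
    intro g
    conv_lhs => rw [hs g]
    exact cg_inv μ ν _ (borel_le μ (hb g)) (borel_le ν (hb' g))
  refine orb _ _ (fun g => (⟨cm μ ν (s g), cm_row hμ hν _, cm_col hμ hν _⟩ : NM μ ν)) ?_ ?_
  · rintro ⟨M, hM, hM'⟩
    obtain ⟨σ, hσ⟩ := cm_surj hμ hν M hM hM'
    refine ⟨pm n F σ, Subtype.ext ?_⟩
    refine Eq.trans ?_ hσ
    exact cm_of_cg (F := F) _ _ _ _ (hcg _).symm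
  · intro g h
    rw [Subtype.ext_iff]
    constructor
    · intro e
      obtain ⟨w, hw, w', hw', e2⟩ := (cm_eq_iff hμ hν _ _).mp e
      refine ⟨b h * pm n F w * (b g)⁻¹, ?_, (b' g)⁻¹ * pm n F w' * b' h, ?_, ?_⟩
      · exact Subgroup.mul_mem _ (Subgroup.mul_mem _ (borel_le μ (hb h)) (pm_mem hw)) (Subgroup.inv_mem _ (borel_le μ (hb g)))
      · exact Subgroup.mul_mem _ (Subgroup.mul_mem _ (Subgroup.inv_mem _ (borel_le ν (hb' g))) (pm_mem hw')) (borel_le ν (hb' h))
      · have e3 : pm n F (s h) = pm n F w * pm n F (s g) * pm n F w' := by rw [e2, map_mul, map_mul]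
        have e4 := hs g
        have e5 := hs h
        calc h = b h * pm n F (s h) * b' h := e5
          _ = b h * pm n F w * (b g)⁻¹ * (b g * pm n F (s g) * b' g) * ((b' g)⁻¹ * pm n F w' * b' h) := by
              rw [e3]; group
          _ = _ := by rw [← e4]
    · rintro ⟨p, hp, q, hq, e⟩
      apply cm_of_cg (F := F)
      rw [← hcg, ← hcg, e, cg_inv μ ν g hp hq]

end

end CfsgLib.Unip
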