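import Cfsg.Agent.LibUthree1
import Cfsg.Agent.S0278
import Cfsg.Agent.S0280

/-!
The unitary group `SU₃(4)` and its module in characteristic `5`.
-/

set_option autoImplicit false
set_option linter.all false
set_option maxRecDepth 100000

namespace CfsgLib.Uthree

open Matrix

abbrev M3 := Matrix (Fin 3) (Fin 3) F16

def zM1 : M3 := !![el 9, el 0, el 2; el 3, el 0, el 14; el 0, el 1, el 0]
def zM2 : M3 := !![el 13, el 2, el 1; el 8, el 14, el 6; el 3, el 0, el 14]
theorem zM_2 : zM1 * zM1 = zM2 := by decide +kernel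
def zM4 : M3 := !![el 14, el 6, el 15; el 1, el 8, el 8; el 5, el 6, el 8]
theorem zM_4 : zM2 * zM2 = zM4 := by decide +kernel
def zM8 : M3 := !![el 11, el 3, el 1; el 8, el 15, el 15; el 11, el 13, el 15]
theorem zM_8 : zM4 * zM4 = zM8 := by decide +kernel
def zM12 : M3 := !![el 14, el 2, el 0; el 0, el 0, el 1; el 3, el 9, el 0]
theorem zM_12 : zM8 * zM4 = zM12 := by decide +kernel
theorem zM_13 : zM12 * zM1 = 1 := by decide +kernel
def gM1 : M3 := !![el 13, el 9, el 0; el 4, el 13, el 0; el 0, el 0, el 10]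
def gM2 : M3 := !![el 12, el 0, el 0; el 0, el 12, el 0; el 0, el 0, el 8]
theorem gM_2 : gM1 * gM1 = gM2 := by decide +kernel
def gM4 : M3 := !![el 15, el 0, el 0; el 0, el 15, el 0; el 0, el 0, el 12]
theorem gM_4 : gM2 * gM2 = gM4 := by decide +kernel
def gM5 : M3 := !![el 7, el 14, el 0; el 9, el 7, el 0; el 0, el 0, el 1]
theorem gM_5 : gM4 * gM1 = gM5 := by decide +kernel
theorem gM_10 : gM5 * gM5 = 1 := by decide +kernel
def hM1 : M3 := !![el 0, el 1, el 0; el 4, el 0, el 2; el 3, el 0, el 5]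
def hM2 : M3 := !![el 4, el 0, el 2; el 6, el 4, el 10; el 15, el 3, el 2]
theorem hM_2 : hM1 * hM1 = hM2 := by decide +kernel
def hM3 : M3 := !![el 6, el 4, el 10; el 14, el 6, el 12; el 10, el 15, el 12]
theorem hM_3 : hM2 * hM1 = hM3 := by decide +kernel
def hM5 : M3 := !![el 12, el 14, el 5; el 2, el 12, el 13; el 2, el 14, el 0]
theorem hM_5 : hM3 * hM2 = hM5 := by decide +kernel
def hM10 : M3 := !![el 10, el 3, el 3; el 9, el 10, el 9; el 4, el 11, el 0]
theorem hM_10 : hM5 * hM5 = hM10 := by decide +kernel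
theorem hM_15 : hM10 * hM5 = 1 := by decide +kernel

/-! ### elements of the group -/

noncomputable def fr4 : F16 →+* F16 where
  toFun x := x ^ 4
  map_one' := by decide +kernel
  map_zero' := by decide +kernel
  map_mul' := by decide +kernel
  map_add' := by decide +kernel

theorem fr4_apply (x : F16) : fr4 x = x ^ 4 := rfl

abbrev GU := ↥(Cfsg.SU 3 F16 4)

theorem mem_of {A : Matrix.SpecialLinearGroup (Fin 3) F16} (h : A.1ᵀ * A.1.map (fun x => x ^ 4) = 1) :
    A ∈ Cfsg.SU 3 F16 4 := (Cfsg.Agent.H22.mem_SU_iff (σ := fr4) fr4_apply A).2 h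

theorem of_mem {A : Matrix.SpecialLinearGroup (Fin 3) F16} (h : A ∈ Cfsg.SU 3 F16 4) :
    A.1ᵀ * A.1.map (fun x => x ^ 4) = 1 := (Cfsg.Agent.H22.mem_SU_iff (σ := fr4) fr4_apply A).1 h

theorem det_eq (A : M3) : A.det = A 0 0 * A 1 1 * A 2 2 - A 0 0 * A 1 2 * A 2 1 - A 0 1 * A 1 0 * A 2 2 +
    A 0 1 * A 1 2 * A 2 0 + A 0 2 * A 1 0 * A 2 1 - A 0 2 * A 1 1 * A 2 0 := Matrix.det_fin_three A

def gz : GU := ⟨⟨zM1, by rw [det_eq]; decide +kernel⟩, mem_of (by decide +kernel)⟩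
def gg : GU := ⟨⟨gM1, by rw [det_eq]; decide +kernel⟩, mem_of (by decide +kernel)⟩
def gh : GU := ⟨⟨hM1, by rw [det_eq]; decide +kernel⟩, mem_of (by decide +kernel)⟩

def co : GU →* M3 where
  toFun g := g.1.1
  map_one' := rfl
  map_mul' _ _ := rfl

theorem co_inj : Function.Injective co := by
  intro a b h
  exact Subtype.ext (Subtype.ext h)

theorem co_gz : co gz = zM1 := rfl
theorem co_gg : co gg = gM1 := rfl
theorem co_gh : co gh = hM1 := rfl

theorem gz_pow : gz ^ 13 = 1 := by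
  apply co_inj
  rw [map_pow, map_one, co_gz]
  calc zM1 ^ 13 = ((zM1 * zM1) * (zM1 * zM1)) * ((zM1 * zM1) * (zM1 * zM1)) * ((zM1 * zM1) * (zM1 * zM1)) * zM1 := by
        noncomm_ring
    _ = 1 := by rw [zM_2, zM_4, zM_8, zM_12, zM_13]

theorem gz_ne : gz ≠ 1 := by
  intro h
  have h1 : zM1 = 1 := by rw [← co_gz, h, map_one]
  revert h1
  decide +kernel

theorem gg_pow : gg ^ 10 = 1 := by
  apply co_inj
  rw [map_pow, map_one, co_gg]
  calc gM1 ^ 10 = ((gM1 * gM1) * (gM1 * gM1) * gM1) * ((gM1 * gM1) * (gM1 * gM1) * gM1) := by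
        noncomm_ring
    _ = 1 := by rw [gM_2, gM_4, gM_5, gM_10]

theorem gg_ne2 : gg ^ 2 ≠ 1 := by
  intro h
  have h1 : gM2 = 1 := by rw [← gM_2, ← pow_two, ← co_gg, ← map_pow, h, map_one]
  revert h1
  decide +kernel

theorem gg_ne5 : gg ^ 5 ≠ 1 := by
  intro h
  have h1 : gM5 = 1 := by
    rw [← gM_5, ← gM_4, ← gM_2]
    have : gM1 * gM1 * (gM1 * gM1) * gM1 = gM1 ^ 5 := by noncomm_ring
    rw [this, ← co_gg, ← map_pow, h, map_one]
  revert h1
  decide +kernel

theorem gh_pow : gh ^ 15 = 1 := by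
  apply co_inj
  rw [map_pow, map_one, co_gh]
  calc hM1 ^ 15 = ((hM1 * hM1) * hM1 * (hM1 * hM1)) * ((hM1 * hM1) * hM1 * (hM1 * hM1)) *
      ((hM1 * hM1) * hM1 * (hM1 * hM1)) := by
        noncomm_ring
    _ = 1 := by rw [hM_2, hM_3, hM_5, hM_10, hM_15]

theorem gh_ne3 : gh ^ 3 ≠ 1 := by
  intro h
  have h1 : hM3 = 1 := by
    rw [← hM_3, ← hM_2]
    have : hM1 * hM1 * hM1 = hM1 ^ 3 := by noncomm_ring
    rw [this, ← co_gh, ← map_pow, h, map_one]
  revert h1
  decide +kernel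

theorem gh_ne5 : gh ^ 5 ≠ 1 := by
  intro h
  have h1 : hM5 = 1 := by
    rw [← hM_5, ← hM_3, ← hM_2]
    have : hM1 * hM1 * hM1 * (hM1 * hM1) = hM1 ^ 5 := by noncomm_ring
    rw [this, ← co_gh, ← map_pow, h, map_one]
  revert h1
  decide +kernel

/-! ### orders -/

section card
variable {F : Type*} [Field F] [Fintype F] (hF : Fintype.card F = 16)
include hF

theorem card_SU : Nat.card (Cfsg.SU 3 F 4) = 62400 := by
  have h := Cfsg.Agent.S0278.result (F := F) (q := 4) (by rw [hF]; norm_num) 3 (by norm_num)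
  simp only [Finset.prod_range_succ, Finset.prod_range_zero] at h
  norm_num [Nat.even_iff] at h
  omega

theorem card_PSU : Nat.card (Cfsg.PSU 3 F 4) = 62400 := by
  have h := Cfsg.Agent.S0280.result (F := F) (q := 4) (by rw [hF]; norm_num) 3 (by norm_num)
  simp only [Finset.prod_range_succ, Finset.prod_range_zero] at h
  norm_num [Nat.even_iff] at h
  omega

theorem center_bot : Subgroup.center (Cfsg.SU 3 F 4) = ⊥ := by
  have h1 := Subgroup.card_eq_card_quotient_mul_card_subgroup (Subgroup.center (Cfsg.SU 3 F 4))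
  have h2 : Nat.card (Cfsg.SU 3 F 4 ⧸ Subgroup.center (Cfsg.SU 3 F 4)) = 62400 := card_PSU hF
  rw [h2, card_SU hF] at h1
  apply Subgroup.eq_bot_of_card_eq
  omega

noncomputable def psuE : Cfsg.PSU 3 F 4 ≃* ↥(Cfsg.SU 3 F 4) :=
  (MulEquiv.ofBijective (QuotientGroup.mk' (Subgroup.center (Cfsg.SU 3 F 4)))
    ⟨by rw [← MonoidHom.ker_eq_bot_iff, QuotientGroup.ker_mk']; exact center_bot hF,
      QuotientGroup.mk'_surjective _⟩).symm

end card

/-! ### change of field -/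

section chg
variable {F K : Type*} [Field F] [Field K]

theorem map_mem (σ : F ≃+* K) {A : Matrix.SpecialLinearGroup (Fin 3) F} (hA : A ∈ Cfsg.SU 3 F 4) :
    Matrix.SpecialLinearGroup.map (σ : F →+* K) A ∈ Cfsg.SU 3 K 4 := by
  intro u v
  have key : ∀ u : Fin 3 → K, (A.1.map σ) *ᵥ u = fun i => σ ((A.1 *ᵥ fun j => σ.symm (u j)) i) := by
    intro u
    funext i
    simp [Matrix.mulVec, dotProduct, Fin.sum_univ_three]
  have hf : ∀ u v : Fin 3 → F, Cfsg.hermForm 3 K 4 (fun i => σ (u i)) (fun i => σ (v i)) =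
      σ (Cfsg.hermForm 3 F 4 u v) := by
    intro u v
    simp [Cfsg.hermForm]
  change Cfsg.hermForm 3 K 4 ((A.1.map σ) *ᵥ u) ((A.1.map σ) *ᵥ v) = Cfsg.hermForm 3 K 4 u v
  rw [key, key, hf]
  have h1 := hA (fun j => σ.symm (u j)) (fun j => σ.symm (v j))
  change Cfsg.hermForm 3 F 4 (A.1 *ᵥ fun j => σ.symm (u j)) (A.1 *ᵥ fun j => σ.symm (v j)) = _ at h1
  rw [h1, ← hf]
  simp

noncomputable def suE (σ : F ≃+* K) : ↥(Cfsg.SU 3 F 4) ≃* ↥(Cfsg.SU 3 K 4) where
  toFun A := ⟨Matrix.SpecialLinearGroup.map (σ : F →+* K) A.1, map_mem σ A.2⟩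
  invFun A := ⟨Matrix.SpecialLinearGroup.map (σ.symm : K →+* F) A.1, map_mem σ.symm A.2⟩
  left_inv A := by
    apply Subtype.ext
    apply Subtype.ext
    ext i j
    simp
  right_inv A := by
    apply Subtype.ext
    apply Subtype.ext
    ext i j
    simp
  map_mul' A B := by
    apply Subtype.ext
    exact map_mul _ _ _

end chg

end CfsgLib.Uthree
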