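import Cfsg.Agent.LibUthree2

/-!
The function on isotropic vectors.
-/

set_option autoImplicit false
set_option linter.all false
set_option maxRecDepth 100000

namespace CfsgLib.Uthree

open Matrix

abbrev K3 := Fin 3 → F16

def tv (v : K3) : V3 := (v 0, v 1, v 2)

/-- the function -/
def ph (v : K3) : ZMod 5 := (fc (nc (v 0)) (nc (v 1)) : ℕ)

def Iso (v : K3) : Prop := (v 0 ≠ 0 ∨ v 1 ≠ 0 ∨ v 2 ≠ 0) ∧ v 0 ^ 5 + v 1 ^ 5 + v 2 ^ 5 = 0

/-! ### tables -/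

theorem nc_lt (a : F16) : nc a < 4 := Nat.mod_lt _ (by norm_num)

theorem tabN_dig (v : V3) : ∀ (l : List ℕ) (k : ℕ) (hk : k < l.length),
    dig4 (tabN v l) k = nc (dt v (vl l[k])) := by
  intro l
  induction l with
  | nil => intro k hk; simp at hk
  | cons p l ih =>
    intro k hk
    have h0 : tabN v (p :: l) = nc (dt v (vl p)) + 4 * tabN v l := rfl
    have h1 := nc_lt (dt v (vl p))
    unfold dig4 at ih ⊢
    rw [h0]
    cases k with
    | zero =>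
      have h2 : Nat.shiftRight (nc (dt v (vl p)) + 4 * tabN v l) (Nat.mul 2 0) = nc (dt v (vl p)) + 4 * tabN v l := rfl
      rw [h2]
      have h3 : Nat.mod (nc (dt v (vl p)) + 4 * tabN v l) 4 = (nc (dt v (vl p)) + 4 * tabN v l) % 4 := rfl
      rw [h3]
      simp only [List.getElem_cons_zero]
      omega
    | succ k =>
      have h2 : Nat.shiftRight (nc (dt v (vl p)) + 4 * tabN v l) (Nat.mul 2 (k + 1)) =
          Nat.shiftRight (tabN v l) (Nat.mul 2 k) := by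
        have e1 : ∀ a b : ℕ, Nat.shiftRight a b = a / 2 ^ b := fun a b => Nat.shiftRight_eq_div_pow a b
        rw [e1, e1]
        have e2 : Nat.mul 2 (k + 1) = 2 + 2 * k := by show 2 * (k + 1) = _; ring
        have e3 : Nat.mul 2 k = 2 * k := rfl
        rw [e2, e3, pow_add, ← Nat.div_div_eq_div_mul]
        congr 1
        omega
      rw [h2, ih k (by simpa using hk)]
      simp

def PP (k : ℕ) : V3 := vl (PL.getD k 0)

theorem PL_len : PL.length = 65 := by decide +kernel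

/-- data attached to entries of the list -/
theorem rl_spec {e : ℕ × ℕ × ℕ} (he : e ∈ RL) : cd (p4 (vl e.1)) = e.2.1 ∧
    ∀ k < 65, dig4 e.2.2 k = nc (dt (vl e.1) (PP k)) := by
  have h := List.all_eq_true.1 rl_chk e he
  simp only [Bool.and_eq_true] at h
  obtain ⟨⟨h1, h2⟩, -⟩ := h
  refine ⟨Nat.eq_of_beq_eq_true h1, ?_⟩
  intro k hk
  have hk' : k < PL.length := by rw [PL_len]; exact hk
  rw [← Nat.eq_of_beq_eq_true h2, tabN_dig _ _ _ hk', PP, List.getD_eq_getElem _ _ hk']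

theorem vl_cd : ∀ a b c : F16, vl (cd (a, b, c)) = (a, b, c) := by decide +kernel

theorem bal_spec {e f : ℕ × ℕ × ℕ} (he : e ∈ RL) (hf : f ∈ RL) (ho : dt (vl e.1) (p4 (vl f.1)) = 0)
    (j : ℕ) (hj : j < 5) : ((sj e.2.2 f.2.2 j : ℕ) : ZMod 5) = ((sj e.2.2 f.2.2 0 : ℕ) : ZMod 5) := by
  have h := List.all_eq_true.1 (List.all_eq_true.1 bal_chk e he) f hf
  have h1 : vl f.2.1 = p4 (vl f.1) := by
    rw [← (rl_spec hf).1]
    exact vl_cd _ _ _
  rw [h1, ho] at h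
  simp only [decide_true, Bool.not_true, Bool.false_or] at h
  unfold bal at h
  simp only [Bool.and_eq_true] at h
  obtain ⟨⟨⟨h1, h2⟩, h3⟩, h4⟩ := h
  rw [ZMod.natCast_eq_natCast_iff]
  interval_cases j
  · rfl
  · exact Nat.eq_of_beq_eq_true h1
  · exact Nat.eq_of_beq_eq_true h2
  · exact Nat.eq_of_beq_eq_true h3
  · exact Nat.eq_of_beq_eq_true h4

theorem sj_eq (T U j : ℕ) : sj T U j =
    ∑ i ∈ Finset.range 13, fc (dig4 T (13 * j + i)) (dig4 U (13 * j + i)) := by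
  have h : ∀ n, (Nat.rec 0 (fun i ih => Nat.add ih (fc (dig4 T (Nat.add (Nat.mul 13 j) i))
      (dig4 U (Nat.add (Nat.mul 13 j) i)))) n : ℕ) =
      ∑ i ∈ Finset.range n, fc (dig4 T (13 * j + i)) (dig4 U (13 * j + i)) := by
    intro n
    induction n with
    | zero => rfl
    | succ n ih => rw [Finset.sum_range_succ, ← ih]; rfl
  exact h 13

/-! ### the orbits -/

def zV (v : V3) : V3 := (el 9 * v.1 + el 0 * v.2.1 + el 2 * v.2.2, el 3 * v.1 + el 0 * v.2.1 + el 14 * v.2.2,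
  el 0 * v.1 + el 1 * v.2.1 + el 0 * v.2.2)

theorem tv_z (v : K3) : tv (zM1 *ᵥ v) = zV (tv v) := by
  simp [tv, zV, zM1, Matrix.mulVec, dotProduct, Fin.sum_univ_three]

theorem orb_chk : ∀ j : Fin 5, ∀ i : Fin 12, zV (PP (13 * j.1 + i.1)) = PP (13 * j.1 + (i.1 + 1)) := by
  decide +kernel

theorem tv_inj {v w : K3} (h : tv v = tv w) : v = w := by
  unfold tv at h
  rw [Prod.mk.injEq, Prod.mk.injEq] at h
  funext i
  fin_cases i
  · exact h.1
  · exact h.2.1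
  · exact h.2.2

def vt (v : V3) : K3 := ![v.1, v.2.1, v.2.2]

theorem tv_vt (v : V3) : tv (vt v) = v := rfl

theorem zpow_P (j : ℕ) (hj : j < 5) (i : ℕ) (hi : i < 13) :
    zM1 ^ i *ᵥ vt (PP (13 * j)) = vt (PP (13 * j + i)) := by
  induction i with
  | zero => rw [pow_zero, Matrix.one_mulVec, add_zero]
  | succ i ih =>
    rw [pow_succ', ← Matrix.mulVec_mulVec, ih (by omega)]
    apply tv_inj
    rw [tv_z, tv_vt, tv_vt]
    exact orb_chk ⟨j, hj⟩ ⟨i, by omega⟩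

theorem sc_tv (c : F16) (v : K3) : tv (c • v) = sc c (tv v) := rfl

theorem fz_chk : ∀ a b c : F16, (a ≠ 0 ∨ b ≠ 0 ∨ c ≠ 0) → fz (a, b, c) ≠ 0 := by decide +kernel

theorem npl_ne : ∀ k : Fin 65, (fz (PP k.1)) ≠ 0 := by decide +kernel

/-- isotropic vectors are multiples of points in the list -/
theorem iso_cases {v : K3} (hv : Iso v) : ∃ (c : F16) (k : ℕ), c ≠ 0 ∧ k < 65 ∧ v = c • vt (PP k) := by
  have h := iso_chk (v 0) (v 1) (v 2) hv.1 hv.2
  rw [List.any_eq_true] at h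
  obtain ⟨n, hn, hn2⟩ := h
  have hn3 := Nat.eq_of_beq_eq_true hn2
  rw [← npl_chk, List.mem_map] at hn
  obtain ⟨p, hp, hpn⟩ := hn
  obtain ⟨k, hk, hkp⟩ := List.mem_iff_getElem.1 hp
  have hk' : k < 65 := by rw [← PL_len]; exact hk
  have hPk : PP k = vl p := by rw [PP, List.getD_eq_getElem _ _ hk, hkp]
  have h1 : sc (fz (PP k))⁻¹ (PP k) = sc (fz (tv v))⁻¹ (tv v) := by
    have e1 := congrArg vl (hpn.trans hn3)
    rw [← hPk] at e1
    have e2 : ∀ w : V3, vl (cd w) = w := fun w => vl_cd w.1 w.2.1 w.2.2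
    rw [e2, e2] at e1
    exact e1
  have h0 : fz (tv v) ≠ 0 := fz_chk _ _ _ hv.1
  have h0' : fz (PP k) ≠ 0 := npl_ne ⟨k, hk'⟩
  refine ⟨fz (tv v) * (fz (PP k))⁻¹, k, mul_ne_zero h0 (inv_ne_zero h0'), hk', ?_⟩
  apply tv_inj
  rw [sc_tv, tv_vt]
  have e3 : ∀ (a b : F16) (w : V3), sc (a * b) w = sc a (sc b w) := by
    intro a b w
    unfold sc
    simp only [mul_assoc]
  rw [e3, h1, ← e3, mul_inv_cancel₀ h0]
  unfold sc
  simp

/-! ### the key property -/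

theorem dt_row (A : M3) (i : Fin 3) (v : K3) : (A *ᵥ v) i = dt (tv (A i)) (tv v) := by
  simp [Matrix.mulVec, dotProduct, Fin.sum_univ_three, dt, tv]

theorem rows {g : GU} (i j : Fin 3) : ∑ k, g.1.1 i k * g.1.1 j k ^ 4 = if i = j then 1 else 0 := by
  have h := of_mem g.2
  have h1 := _root_.mul_eq_one_comm.1 h
  have h2 := congrFun (congrFun h1 j) i
  rw [Matrix.mul_apply, Matrix.one_apply] at h2
  simp only [Matrix.map_apply, Matrix.transpose_apply] at h2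
  rw [show (if i = j then (1 : F16) else 0) = if j = i then 1 else 0 by simp only [eq_comm]]
  rw [← h2]
  exact Finset.sum_congr rfl fun k _ => mul_comm _ _

/-- normal form of a row -/
theorem row_nf {r : V3} (hr : r.1 ^ 5 + r.2.1 ^ 5 + r.2.2 ^ 5 = 1) :
    ∃ e ∈ RL, ∃ c : F16, c ≠ 0 ∧ vl e.1 = sc c r ∧ ∀ u, nc (dt (vl e.1) u) = nc (dt r u) := by
  have h := can_chk r.1 r.2.1 r.2.2 hr
  rw [List.any_eq_true] at h
  obtain ⟨e, he, he2⟩ := h
  have he3 := Nat.eq_of_beq_eq_true he2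
  have h1 : vl e.1 = cn r := by rw [he3]; exact vl_cd _ _ _
  have hne : r.1 ≠ 0 ∨ r.2.1 ≠ 0 ∨ r.2.2 ≠ 0 := by
    by_contra hcon
    push Not at hcon
    rw [hcon.1, hcon.2.1, hcon.2.2] at hr
    revert hr
    decide
  have hk := kc_chk (fz r) (fz_chk _ _ _ hne)
  refine ⟨e, he, kc (fz r), ?_, h1, ?_⟩
  · intro h0
    rw [h0] at hk
    revert hk
    decide
  · intro u
    rw [h1]
    have h2 : dt (cn r) u = kc (fz r) * dt r u := by
      unfold cn sc dt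
      ring
    rw [h2]
    exact nc_chk _ _ hk

theorem ph_scale (c : F16) (hc : c ≠ 0) (v : K3) : ph (c • v) = ph v := by
  unfold ph
  congr 1
  exact fc_chk (v 0) (v 1) c hc

theorem key (g : GU) : ∃ S : ZMod 5, ∀ v : K3, Iso v →
    ∑ i ∈ Finset.range 13, ph (g.1.1 *ᵥ (zM1 ^ i *ᵥ v)) = S := by
  have h00 : g.1.1 0 0 * g.1.1 0 0 ^ 4 + g.1.1 0 1 * g.1.1 0 1 ^ 4 + g.1.1 0 2 * g.1.1 0 2 ^ 4 = 1 := by
    have := rows (g := g) 0 0
    rw [if_pos rfl, Fin.sum_univ_three] at this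
    exact this
  have h11 : g.1.1 1 0 * g.1.1 1 0 ^ 4 + g.1.1 1 1 * g.1.1 1 1 ^ 4 + g.1.1 1 2 * g.1.1 1 2 ^ 4 = 1 := by
    have := rows (g := g) 1 1
    rw [if_pos rfl, Fin.sum_univ_three] at this
    exact this
  have h01 : g.1.1 0 0 * g.1.1 1 0 ^ 4 + g.1.1 0 1 * g.1.1 1 1 ^ 4 + g.1.1 0 2 * g.1.1 1 2 ^ 4 = 0 := by
    have := rows (g := g) 0 1
    rw [if_neg (by decide), Fin.sum_univ_three] at this
    exact this
  obtain ⟨e, he, c, hc, hec, hen⟩ := row_nf (r := tv (g.1.1 0)) (by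
    simp only [tv]
    refine Eq.trans ?_ h00
    ring)
  obtain ⟨f, hf, d, hd, hfd, hfn⟩ := row_nf (r := tv (g.1.1 1)) (by
    simp only [tv]
    refine Eq.trans ?_ h11
    ring)
  have ho : dt (vl e.1) (p4 (vl f.1)) = 0 := by
    rw [hec, hfd]
    have : dt (sc c (tv (g.1.1 0))) (p4 (sc d (tv (g.1.1 1)))) =
        c * d ^ 4 * (g.1.1 0 0 * g.1.1 1 0 ^ 4 + g.1.1 0 1 * g.1.1 1 1 ^ 4 + g.1.1 0 2 * g.1.1 1 2 ^ 4) := by
      simp only [dt, sc, p4, tv]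
      ring
    rw [this, h01, mul_zero]
  refine ⟨((sj e.2.2 f.2.2 0 : ℕ) : ZMod 5), ?_⟩
  have hper : ∀ v : K3, ∑ i ∈ Finset.range 13, ph (g.1.1 *ᵥ (zM1 ^ i *ᵥ (zM1 *ᵥ v))) =
      ∑ i ∈ Finset.range 13, ph (g.1.1 *ᵥ (zM1 ^ i *ᵥ v)) := by
    intro v
    have h13 : zM1 ^ 13 = 1 := by
      have := congrArg co gz_pow
      rwa [map_pow, map_one, co_gz] at this
    have e1 : ∀ i, ph (g.1.1 *ᵥ (zM1 ^ i *ᵥ (zM1 *ᵥ v))) = ph (g.1.1 *ᵥ (zM1 ^ (i + 1) *ᵥ v)) := by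
      intro i
      rw [pow_succ, Matrix.mulVec_mulVec v]
    have hL := Finset.sum_range_succ (fun i => ph (g.1.1 *ᵥ (zM1 ^ (i + 1) *ᵥ v))) 12
    have hR := Finset.sum_range_succ' (fun i => ph (g.1.1 *ᵥ (zM1 ^ i *ᵥ v))) 12
    rw [Finset.sum_congr rfl fun i _ => e1 i]
    refine hL.trans (Eq.trans ?_ hR.symm)
    simp only [Nat.reduceAdd]
    rw [h13, pow_zero]
  have hper2 : ∀ (j : ℕ) (v : K3), ∑ i ∈ Finset.range 13, ph (g.1.1 *ᵥ (zM1 ^ i *ᵥ (zM1 ^ j *ᵥ v))) =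
      ∑ i ∈ Finset.range 13, ph (g.1.1 *ᵥ (zM1 ^ i *ᵥ v)) := by
    intro j
    induction j with
    | zero => intro v; simp only [pow_zero, Matrix.one_mulVec]
    | succ j ih =>
      intro v
      rw [pow_succ, ← Matrix.mulVec_mulVec v, ih, hper]
  intro v hv
  obtain ⟨c', k, hc', hk, rfl⟩ := iso_cases hv
  obtain ⟨j, i, hj, hi, rfl⟩ : ∃ j i, j < 5 ∧ i < 13 ∧ k = 13 * j + i :=
    ⟨k / 13, k % 13, by omega, Nat.mod_lt _ (by norm_num), (Nat.div_add_mod k 13).symm⟩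
  have e2 : ∀ i', ph (g.1.1 *ᵥ (zM1 ^ i' *ᵥ (c' • vt (PP (13 * j + i))))) =
      ph (g.1.1 *ᵥ (zM1 ^ i' *ᵥ vt (PP (13 * j + i)))) := by
    intro i'
    rw [Matrix.mulVec_smul, Matrix.mulVec_smul, ph_scale _ hc']
  rw [Finset.sum_congr rfl fun i' _ => e2 i', ← zpow_P j hj i hi, hper2]
  rw [← bal_spec he hf ho j hj, sj_eq, Nat.cast_sum]
  apply Finset.sum_congr rfl
  intro l hl
  have hl' : l < 13 := Finset.mem_range.1 hl
  rw [zpow_P j hj l hl', (rl_spec he).2 _ (by omega), (rl_spec hf).2 _ (by omega), hen, hfn]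
  unfold ph
  rw [dt_row, dt_row, tv_vt]

end CfsgLib.Uthree
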