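import Cfsg.Agent.LibUthree3

/-!
Groups with the prime graph of `U₃(4)`.
-/

set_option autoImplicit false
set_option linter.all false
set_option maxRecDepth 100000

namespace CfsgLib.Uthree

open Matrix

/-! ### generic facts -/

section gen

open Subgroup

variable {G : Type*} [Group G] [Finite G]

/-- elements of order `p` when `p² ∤ |G|` -/
theorem conj_pow {p : ℕ} [hp : Fact p.Prime] (hG : ¬ p ^ 2 ∣ Nat.card G) {g h : G}
    (hg : orderOf g = p) (hh : orderOf h = p) : ∃ t : G, t * h * t⁻¹ ∈ zpowers g := by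
  have hcard : ∀ k : G, orderOf k = p → Nat.card (zpowers k) = p ^ (Nat.card G).factorization p := by
    intro k hk
    have h1 : p ∣ Nat.card G := hk ▸ orderOf_dvd_natCard k
    have h2 : (Nat.card G).factorization p = 1 := by
      apply le_antisymm
      · by_contra hlt
        apply hG
        exact (hp.out.pow_dvd_iff_le_factorization Nat.card_pos.ne').2 (by omega)
      · exact (hp.out.dvd_iff_one_le_factorization Nat.card_pos.ne').1 h1
    rw [Nat.card_zpowers, hk, h2, pow_one]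
  let P : Sylow p G := Sylow.ofCard (zpowers g) (hcard g hg)
  let Q : Sylow p G := Sylow.ofCard (zpowers h) (hcard h hh)
  obtain ⟨t, ht⟩ := MulAction.exists_smul_eq G Q P
  refine ⟨t, ?_⟩
  have h1 : t * h * t⁻¹ ∈ (P : Subgroup G) := by
    rw [← ht]
    exact Subgroup.smul_mem_pointwise_smul h (MulAut.conj t) (Q : Subgroup G) (mem_zpowers h)
  exact h1

theorem order_prime_mul {G : Type*} [Group G] {g : G} {p r : ℕ} (hr : r.Prime) (hp : p.Prime) (h1 : g ^ (r * p) = 1)
    (h2 : g ^ r ≠ 1) (h3 : g ^ p ≠ 1) : orderOf g = r * p := by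
  have hd : orderOf g ∣ r * p := orderOf_dvd_of_pow_eq_one h1
  have hn2 : ¬ orderOf g ∣ r := fun h => h2 (orderOf_dvd_iff_pow_eq_one.1 h)
  have hnp : ¬ orderOf g ∣ p := fun h => h3 (orderOf_dvd_iff_pow_eq_one.1 h)
  obtain ⟨c, hc⟩ := hd
  by_cases h : p ∣ orderOf g
  · obtain ⟨k, hk⟩ := h
    have h6 : p * r = p * (k * c) := by
      calc p * r = r * p := mul_comm _ _
        _ = p * (k * c) := by rw [hc, hk]; ring
    have h5 : k * c = r := (Nat.eq_of_mul_eq_mul_left hp.pos h6).symm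
    rcases (Nat.dvd_prime hr).1 ⟨c, h5.symm⟩ with rfl | rfl
    · exact absurd (by rw [hk, mul_one]) hnp
    · rw [hk]; ring
  · exfalso
    have hcop : Nat.Coprime (orderOf g) p := ((Nat.Prime.coprime_iff_not_dvd hp).2 h).symm
    exact hn2 (hcop.dvd_of_dvd_mul_right ⟨c, hc⟩)

end gen

section sd

variable {X G : Type*} [CommGroup X] [Group G] (φ : G →* MulAut X)

theorem pow_right (x : X ⋊[φ] G) (n : ℕ) : (x ^ n).right = x.right ^ n :=
  map_pow (SemidirectProduct.rightHom : X ⋊[φ] G →* G) x n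

theorem pow_fix (x : X ⋊[φ] G) {n : ℕ} (h : x.right ^ n = 1) :
    ∃ w : X, x ^ n = SemidirectProduct.inl w ∧ φ x.right w = w := by
  have hr : (x ^ n).right = 1 := by rw [pow_right]; exact h
  refine ⟨(x ^ n).left, ?_, ?_⟩
  · ext1
    · rfl
    · exact hr
  · have h1 : x * x ^ n = x ^ n * x := (Commute.refl x).pow_right n
    have h2 := congrArg SemidirectProduct.left h1
    rw [SemidirectProduct.mul_left, SemidirectProduct.mul_left, hr, map_one, MulAut.one_apply, mul_comm] at h2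
    exact mul_right_cancel h2

theorem pow_one_of_nofix (x : X ⋊[φ] G) {n : ℕ} (h : x.right ^ n = 1)
    (hf : ∀ w, φ x.right w = w → w = 1) : x ^ n = 1 := by
  obtain ⟨w, hw, hw'⟩ := pow_fix φ x h
  rw [hw, hf w hw', map_one]

theorem pow_one_of_exp (x : X ⋊[φ] G) {n p : ℕ} (h : x.right ^ n = 1)
    (hp : ∀ w : X, w ^ p = 1) : x ^ (n * p) = 1 := by
  obtain ⟨w, hw, -⟩ := pow_fix φ x h
  rw [pow_mul, hw, ← map_pow, hp, map_one]

/-- a fixed-point-free element stays so for all elements of the same prime order -/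
theorem nofix_of_conj [Finite G] {p : ℕ} (hp : p.Prime) (hG : ¬ p ^ 2 ∣ Nat.card G) {g x : G}
    (hg : orderOf g = p) (hx : orderOf x = p) (hf : ∀ w, φ g w = w → w = 1) (w : X) (hw : φ x w = w) : w = 1 := by
  haveI : Fact p.Prime := ⟨hp⟩
  obtain ⟨t, ht⟩ := conj_pow hG hx hg
  obtain ⟨m, hm⟩ := Subgroup.mem_zpowers_iff.1 ht
  have h1 : φ (x ^ m) w = w := by
    rw [map_zpow]
    have : (φ x) ∈ MulAction.stabilizer (MulAut X) w := hw
    exact (MulAction.stabilizer (MulAut X) w).zpow_mem this m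
  have hmm : ∀ (a b : G) (w : X), φ (a * b) w = φ a (φ b w) := fun a b w => by rw [map_mul]; rfl
  rw [hm, hmm, hmm] at h1
  have h2 : φ g (φ t⁻¹ w) = φ t⁻¹ w := by
    conv_rhs => rw [← h1]
    rw [← hmm t⁻¹ t, inv_mul_cancel, map_one, MulAut.one_apply]
  have h3 := hf _ h2
  have h4 : φ t (φ t⁻¹ w) = w := by
    rw [← hmm, mul_inv_cancel, map_one, MulAut.one_apply]
  rw [h3, map_one] at h4
  exact h4.symm

end sd

/-! ### the module -/

/-- the property of functions -/
def Wp (f : K3 → ZMod 5) : Prop := ∀ g : GU, ∃ S : ZMod 5, ∀ v : K3, Iso v →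
    ∑ i ∈ Finset.range 13, f (g.1.1 *ᵥ (zM1 ^ i *ᵥ v)) = S

theorem Wp_ph : Wp ph := fun g => key g

open Classical in
noncomputable def dif (f : K3 → ZMod 5) (p : K3 × K3) : ZMod 5 := if Iso p.1 ∧ Iso p.2 then f p.1 - f p.2 else 0

noncomputable def VV : AddSubgroup (K3 × K3 → ZMod 5) where
  carrier := {D | ∃ f, Wp f ∧ D = dif f}
  zero_mem' := by
    refine ⟨0, fun g => ⟨0, fun v _ => by simp⟩, ?_⟩
    funext p
    unfold dif
    split_ifs <;> simp
  add_mem' := by
    rintro D E ⟨f, hf, rfl⟩ ⟨g, hg, rfl⟩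
    refine ⟨f + g, ?_, ?_⟩
    · intro x
      obtain ⟨S, hS⟩ := hf x
      obtain ⟨T, hT⟩ := hg x
      refine ⟨S + T, fun v hv => ?_⟩
      simp only [Pi.add_apply]
      rw [Finset.sum_add_distrib, hS v hv, hT v hv]
    · funext p
      simp only [Pi.add_apply]
      unfold dif
      split_ifs
      · simp only [Pi.add_apply]; ring
      · ring
  neg_mem' := by
    rintro D ⟨f, hf, rfl⟩
    refine ⟨-f, ?_, ?_⟩
    · intro x
      obtain ⟨S, hS⟩ := hf x
      refine ⟨-S, fun v hv => ?_⟩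
      simp only [Pi.neg_apply]
      rw [Finset.sum_neg_distrib, hS v hv]
    · funext p
      simp only [Pi.neg_apply]
      unfold dif
      split_ifs
      · simp only [Pi.neg_apply]; ring
      · ring

/-- isotropic vectors are preserved -/
theorem iso_iff_form (v : K3) : Iso v ↔ v ≠ 0 ∧ Cfsg.hermForm 3 F16 4 v v = 0 := by
  unfold Iso Cfsg.hermForm
  rw [Fin.sum_univ_three]
  constructor
  · rintro ⟨h1, h2⟩
    refine ⟨?_, ?_⟩
    · rintro rfl
      rcases h1 with h | h | h <;> exact h rfl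
    · refine Eq.trans ?_ h2
      ring
  · rintro ⟨h1, h2⟩
    refine ⟨?_, ?_⟩
    · by_contra hcon
      push Not at hcon
      apply h1
      funext i
      fin_cases i
      · exact hcon.1
      · exact hcon.2.1
      · exact hcon.2.2
    · refine Eq.trans ?_ h2
      ring

theorem iso_g (g : GU) {v : K3} (hv : Iso v) : Iso (g.1.1 *ᵥ v) := by
  rw [iso_iff_form] at hv ⊢
  refine ⟨?_, ?_⟩
  · intro h
    apply hv.1
    have h1 : (g⁻¹).1.1 *ᵥ (g.1.1 *ᵥ v) = v := by
      rw [Matrix.mulVec_mulVec]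
      have : (g⁻¹).1.1 * g.1.1 = co (g⁻¹ * g) := rfl
      rw [this, inv_mul_cancel, map_one, Matrix.one_mulVec]
    rw [← h1, h, Matrix.mulVec_zero]
  · have h2 := g.2 v v
    exact h2.trans hv.2

theorem mv_mul (g h : GU) (v : K3) : (g * h).1.1 *ᵥ v = g.1.1 *ᵥ (h.1.1 *ᵥ v) := by
  rw [Matrix.mulVec_mulVec]; rfl

theorem mv_one (v : K3) : (1 : GU).1.1 *ᵥ v = v := Matrix.one_mulVec v

theorem mv_inv (g : GU) (v : K3) : g.1.1 *ᵥ ((g⁻¹).1.1 *ᵥ v) = v := by
  rw [← mv_mul, mul_inv_cancel, mv_one]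

theorem mv_inv' (g : GU) (v : K3) : (g⁻¹).1.1 *ᵥ (g.1.1 *ᵥ v) = v := by
  rw [← mv_mul, inv_mul_cancel, mv_one]

theorem iso_g_iff (g : GU) (v : K3) : Iso (g.1.1 *ᵥ v) ↔ Iso v := by
  constructor
  · intro h
    have := iso_g g⁻¹ h
    rwa [mv_inv'] at this
  · exact iso_g g

theorem Wp_g {f : K3 → ZMod 5} (hf : Wp f) (g : GU) : Wp (fun v => f (g.1.1 *ᵥ v)) := by
  intro h
  obtain ⟨S, hS⟩ := hf (g * h)
  refine ⟨S, fun v hv => ?_⟩
  rw [← hS v hv]
  apply Finset.sum_congr rfl
  intro i _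
  rw [mv_mul]

theorem dif_g (g : GU) (f : K3 → ZMod 5) (p : K3 × K3) :
    dif f (g.1.1 *ᵥ p.1, g.1.1 *ᵥ p.2) = dif (fun v => f (g.1.1 *ᵥ v)) p := by
  unfold dif
  by_cases hp : Iso p.1 ∧ Iso p.2
  · rw [if_pos hp, if_pos ⟨(iso_g_iff g p.1).2 hp.1, (iso_g_iff g p.2).2 hp.2⟩]
  · rw [if_neg hp, if_neg (fun h => hp ⟨(iso_g_iff g p.1).1 h.1, (iso_g_iff g p.2).1 h.2⟩)]

noncomputable def actV (g : GU) (D : VV) : VV :=
  ⟨fun p => D.1 ((g⁻¹).1.1 *ᵥ p.1, (g⁻¹).1.1 *ᵥ p.2), by
    obtain ⟨D, f, hf, rfl⟩ := D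
    refine ⟨fun v => f ((g⁻¹).1.1 *ᵥ v), Wp_g hf g⁻¹, ?_⟩
    funext p
    exact dif_g g⁻¹ f p⟩

theorem actV_apply (g : GU) (D : VV) (p : K3 × K3) :
    (actV g D).1 p = D.1 ((g⁻¹).1.1 *ᵥ p.1, (g⁻¹).1.1 *ᵥ p.2) := rfl

theorem actV_mul (g h : GU) (D : VV) : actV (g * h) D = actV g (actV h D) := by
  apply Subtype.ext
  funext p
  rw [actV_apply, actV_apply, actV_apply, _root_.mul_inv_rev, mv_mul, mv_mul]

theorem actV_one (D : VV) : actV 1 D = D := by
  apply Subtype.ext
  funext p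
  rw [actV_apply, inv_one, mv_one, mv_one]

theorem actV_add (g : GU) (D E : VV) : actV g (D + E) = actV g D + actV g E := rfl

/-- no fixed points -/
theorem nofix_z (D : VV) (h : actV gz D = D) : D = 0 := by
  obtain ⟨D, f, hf, rfl⟩ := D
  apply Subtype.ext
  funext p
  change dif f p = 0
  unfold dif
  split_ifs with hp
  swap
  · rfl
  have h1 : ∀ v w : K3, Iso v → Iso w → f (zM1 *ᵥ v) - f (zM1 *ᵥ w) = f v - f w := by
    intro v w hv hw
    have h2 := congrFun (congrArg Subtype.val h) (zM1 *ᵥ v, zM1 *ᵥ w)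
    rw [actV_apply] at h2
    have e1 : ∀ u : K3, (gz⁻¹).1.1 *ᵥ (zM1 *ᵥ u) = u := fun u => mv_inv' gz u
    simp only [e1] at h2
    unfold dif at h2
    rw [if_pos ⟨hv, hw⟩, if_pos ⟨iso_g gz hv, iso_g gz hw⟩] at h2
    exact h2.symm
  -- the difference `f (z v) - f v` is constant
  obtain ⟨c, hc⟩ : ∃ c, ∀ v, Iso v → f (zM1 *ᵥ v) = f v + c := by
    refine ⟨f (zM1 *ᵥ p.1) - f p.1, fun v hv => ?_⟩
    have := h1 v p.1 hv hp.1
    linear_combination this
  have hisoz : ∀ (i : ℕ) (v : K3), Iso v → Iso (zM1 ^ i *ᵥ v) := by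
    intro i v hv
    have : zM1 ^ i = (gz ^ i).1.1 := by
      rw [← co_gz, ← map_pow]; rfl
    rw [this]
    exact iso_g _ hv
  have h3 : ∀ (i : ℕ) (v : K3), Iso v → f (zM1 ^ i *ᵥ v) = f v + i * c := by
    intro i
    induction i with
    | zero => intro v _; simp
    | succ i ih =>
      intro v hv
      rw [pow_succ', ← Matrix.mulVec_mulVec, hc _ (hisoz i v hv), ih v hv]
      push_cast
      ring
  have h13 : zM1 ^ 13 = 1 := by
    have := congrArg co gz_pow
    rwa [map_pow, map_one, co_gz] at this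
  have h4 := h3 13 p.1 hp.1
  rw [h13, Matrix.one_mulVec] at h4
  have hc0 : c = 0 := by
    have h5 : ((13 : ℕ) : ZMod 5) * c = 0 := by linear_combination -h4
    revert h5
    generalize c = c'
    revert c'
    decide
  obtain ⟨S, hS⟩ := hf 1
  have h6 : ∀ v : K3, Iso v → ((13 : ℕ) : ZMod 5) * f v = S := by
    intro v hv
    have h7 := hS v hv
    simp only [mv_one] at h7
    have h8 : ∀ i ∈ Finset.range 13, f (zM1 ^ i *ᵥ v) = f v := by
      intro i _
      rw [h3 i v hv, hc0, mul_zero, add_zero]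
    rw [Finset.sum_congr rfl h8, Finset.sum_const, Finset.card_range, nsmul_eq_mul] at h7
    exact h7
  have h9 : ((13 : ℕ) : ZMod 5) * (f p.1 - f p.2) = 0 := by
    rw [mul_sub, h6 _ hp.1, h6 _ hp.2, sub_self]
  revert h9
  generalize f p.1 - f p.2 = c'
  revert c'
  decide

theorem exists_ne : ∃ D : VV, D ≠ 0 := by
  refine ⟨⟨dif ph, ph, Wp_ph, rfl⟩, ?_⟩
  intro h
  have h1 := congrFun (congrArg Subtype.val h) (vt (PP 1), vt (PP 0))
  have i1 : Iso (vt (PP 1)) := by unfold Iso; decide +kernel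
  have i0 : Iso (vt (PP 0)) := by unfold Iso; decide +kernel
  change dif ph (vt (PP 1), vt (PP 0)) = 0 at h1
  unfold dif at h1
  rw [if_pos ⟨i1, i0⟩] at h1
  revert h1
  decide +kernel

/-! ### main -/

abbrev Xk (k : ℕ) := Multiplicative (Fin k → VV)

theorem xk_ext {k : ℕ} {v w : Xk k}
    (h : ∀ i, Multiplicative.toAdd v i = Multiplicative.toAdd w i) : v = w :=
  Multiplicative.toAdd.injective (funext h)

noncomputable def actE (k : ℕ) (g : GU) : Xk k ≃* Xk k :=
  AddEquiv.toMultiplicative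
    { toFun := fun v i => actV g (v i)
      invFun := fun v i => actV g⁻¹ (v i)
      left_inv := fun v => by
        funext i
        change actV g⁻¹ (actV g (v i)) = v i
        rw [← actV_mul, inv_mul_cancel, actV_one]
      right_inv := fun v => by
        funext i
        change actV g (actV g⁻¹ (v i)) = v i
        rw [← actV_mul, mul_inv_cancel, actV_one]
      map_add' := fun v w => by
        funext i
        exact actV_add _ _ _ }

noncomputable def φ (k : ℕ) : GU →* MulAut (Xk k) :=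
  MonoidHom.mk' (fun g => actE k g) (by
    intro g h
    ext1 v
    apply xk_ext
    intro i
    exact actV_mul g h _)

theorem φ_apply (k : ℕ) (g : GU) (v : Xk k) (i : Fin k) :
    Multiplicative.toAdd (φ k g v) i = actV g (Multiplicative.toAdd v i) := rfl

theorem xk_five {k : ℕ} (v : Xk k) : v ^ 5 = 1 := by
  apply xk_ext
  intro i
  change 5 • Multiplicative.toAdd v i = 0
  apply Subtype.ext
  funext p
  change 5 • (Multiplicative.toAdd v i).1 p = 0
  generalize (Multiplicative.toAdd v i).1 p = a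
  revert a
  decide

theorem nofix_k {k : ℕ} (v : Xk k) (h : φ k gz v = v) : v = 1 := by
  apply xk_ext
  intro i
  exact nofix_z _ (congrFun (congrArg Multiplicative.toAdd h) i)

theorem card_Xk (k : ℕ) : 2 ^ k ≤ Nat.card (Xk k) := by
  have h0 : Nat.card (Xk k) = Nat.card VV ^ k := by
    have h1 : Nat.card (Xk k) = Nat.card (Fin k → VV) := rfl
    rw [h1, Nat.card_fun, Nat.card_fin]
  rw [h0]
  apply Nat.pow_le_pow_left
  obtain ⟨D, hD⟩ := exists_ne
  haveI : Nontrivial VV := ⟨D, 0, hD⟩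
  exact Finite.one_lt_card

theorem main {F : Type*} [Field F] [Fintype F] (hF : Fintype.card F = 16) (N : ℕ) :
    ∃ (H : Type) (_ : Group H) (_ : Finite H), N < Nat.card H ∧
      ((∀ p : ℕ, p.Prime → (p ∣ Nat.card (Cfsg.PSU 3 F 4) ↔ p ∣ Nat.card H)) ∧
      (∀ p q : ℕ, p.Prime → q.Prime → p ≠ q → ((∃ g : (Cfsg.PSU 3 F 4), orderOf g = p * q) ↔
        (∃ g : H, orderOf g = p * q)))) := by
  obtain ⟨σ⟩ : Nonempty (F ≃+* F16) := by
    classical
    exact ⟨FiniteField.ringEquivOfCardEq (by rw [hF, F16.card])⟩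
  have e : Cfsg.PSU 3 F 4 ≃* GU := (psuE hF).trans (suE σ)
  have hcG : Nat.card GU = 62400 := card_SU (F := F16) F16.card
  haveI : Finite GU := Nat.finite_of_card_ne_zero (by rw [hcG]; norm_num)
  have hcL : Nat.card (Cfsg.PSU 3 F 4) = 62400 := card_PSU hF
  have o10 : orderOf gg = 2 * 5 := order_prime_mul Nat.prime_two Nat.prime_five gg_pow gg_ne2 gg_ne5
  have o15 : orderOf gh = 3 * 5 := order_prime_mul Nat.prime_three Nat.prime_five gh_pow gh_ne3 gh_ne5
  have o13 : orderOf gz = 13 := by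
    haveI : Fact (Nat.Prime 13) := ⟨by norm_num⟩
    exact orderOf_eq_prime gz_pow gz_ne
  set k := N + 1 with hk
  have hcard : Nat.card (Xk k ⋊[φ k] GU) = Nat.card (Xk k) * 62400 := by
    rw [SemidirectProduct.card, hcG]
  have hXpos : 0 < Nat.card (Xk k) := Nat.card_pos
  have hN : N < 2 ^ k := by
    have := Nat.lt_two_pow_self (n := k)
    omega
  refine ⟨Xk k ⋊[φ k] GU, inferInstance, ?_, ?_, ?_, ?_⟩
  · exact Nat.finite_of_card_ne_zero (by rw [hcard]; positivity)
  · rw [hcard]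
    calc N < 2 ^ k := hN
      _ ≤ Nat.card (Xk k) := card_Xk k
      _ ≤ Nat.card (Xk k) * 62400 := Nat.le_mul_of_pos_right _ (by norm_num)
  · intro p hp
    rw [hcard, hcL]
    constructor
    · intro h; exact Dvd.dvd.mul_left h _
    · intro h
      rcases (Nat.Prime.dvd_mul hp).1 h with h | h
      · haveI : Fact p.Prime := ⟨hp⟩
        obtain ⟨x, hx⟩ := exists_prime_orderOf_dvd_card' p h
        have h5 : p ∣ 5 := hx ▸ orderOf_dvd_of_pow_eq_one (xk_five x)
        exact h5.trans ⟨12480, by norm_num⟩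
      · exact h
  · -- the case `p = 5`
    have key5 : ∀ q : ℕ, q.Prime → q ≠ 5 → ∀ x : Xk k ⋊[φ k] GU, orderOf x = 5 * q →
        ∃ g : GU, orderOf g = 5 * q := by
      intro q hq hq2 x hx
      have h1 : x.right ^ orderOf x.right = 1 := pow_orderOf_eq_one _
      have h2 : x ^ (orderOf x.right * 5) = 1 := pow_one_of_exp (φ k) x h1 xk_five
      have h3 : 5 * q ∣ orderOf x.right * 5 := hx ▸ orderOf_dvd_of_pow_eq_one h2
      have h4 : q ∣ orderOf x.right := by
        rw [mul_comm (orderOf x.right)] at h3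
        exact Nat.dvd_of_mul_dvd_mul_left (by norm_num) h3
      have h5 : orderOf x.right ∣ 5 * q := by
        apply orderOf_dvd_of_pow_eq_one
        rw [← pow_right, ← hx, pow_orderOf_eq_one]; rfl
      obtain ⟨m, hm⟩ := h4
      have hm2 : m ∣ 5 := by
        rw [hm, mul_comm 5 q] at h5
        exact Nat.dvd_of_mul_dvd_mul_left hq.pos h5
      rcases (Nat.dvd_prime Nat.prime_five).1 hm2 with rfl | rfl
      · rw [mul_one] at hm
        have hqL : q ∣ 62400 := by
          have := orderOf_dvd_natCard x.right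
          rwa [hm, hcG] at this
        have hqc : q = 2 ∨ q = 3 ∨ q = 5 ∨ q = 13 := by
          have h7 : (62400 : ℕ) = 2 ^ 6 * (3 * (5 ^ 2 * 13)) := by norm_num
          rw [h7] at hqL
          rcases (Nat.Prime.dvd_mul hq).1 hqL with h | h
          · left; exact (Nat.prime_dvd_prime_iff_eq hq Nat.prime_two).1 (hq.dvd_of_dvd_pow h)
          rcases (Nat.Prime.dvd_mul hq).1 h with h | h
          · right; left; exact (Nat.prime_dvd_prime_iff_eq hq Nat.prime_three).1 h
          rcases (Nat.Prime.dvd_mul hq).1 h with h | h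
          · right; right; left; exact (Nat.prime_dvd_prime_iff_eq hq Nat.prime_five).1 (hq.dvd_of_dvd_pow h)
          · right; right; right; exact (Nat.prime_dvd_prime_iff_eq hq (by norm_num)).1 h
        rcases hqc with rfl | rfl | rfl | rfl
        · exact ⟨gg, by rw [o10]⟩
        · exact ⟨gh, by rw [o15]⟩
        · exact absurd rfl hq2
        · exfalso
          have h8 : x ^ 13 = 1 := by
            apply pow_one_of_nofix (φ k)
            · rw [← hm]; exact h1
            · intro w hw2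
              exact nofix_of_conj (φ k) (by norm_num) (by rw [hcG]; norm_num) o13 hm nofix_k w hw2
          have h9 : 5 * 13 ∣ 13 := hx ▸ orderOf_dvd_of_pow_eq_one h8
          revert h9
          decide
      · exact ⟨x.right, by rw [hm, mul_comm]⟩
    intro p q hp hq hpq
    have hLG : (∃ g : Cfsg.PSU 3 F 4, orderOf g = p * q) ↔ ∃ g : GU, orderOf g = p * q := by
      constructor
      · rintro ⟨g, hg⟩; exact ⟨e g, by rw [MulEquiv.orderOf_eq, hg]⟩
      · rintro ⟨g, hg⟩; exact ⟨e.symm g, by rw [MulEquiv.orderOf_eq, hg]⟩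
    rw [hLG]
    constructor
    · rintro ⟨g, hg⟩
      refine ⟨SemidirectProduct.inr g, ?_⟩
      rw [orderOf_injective SemidirectProduct.inr SemidirectProduct.inr_injective, hg]
    · rintro ⟨x, hx⟩
      by_cases hp2 : p = 5
      · subst hp2
        exact key5 q hq hpq.symm x hx
      by_cases hq2 : q = 5
      · subst hq2
        rw [mul_comm p 5] at hx ⊢
        exact key5 p hp hpq x hx
      · refine ⟨x.right, ?_⟩
        have h1 : x.right ^ orderOf x.right = 1 := pow_orderOf_eq_one _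
        have h2 : x ^ (orderOf x.right * 5) = 1 := pow_one_of_exp (φ k) x h1 xk_five
        have h3 : p * q ∣ orderOf x.right * 5 := hx ▸ orderOf_dvd_of_pow_eq_one h2
        have hcop : Nat.Coprime (p * q) 5 := by
          apply Nat.Coprime.mul_left
          · exact (Nat.coprime_primes hp Nat.prime_five).2 hp2
          · exact (Nat.coprime_primes hq Nat.prime_five).2 hq2
        have h4 : p * q ∣ orderOf x.right := hcop.dvd_of_dvd_mul_right h3
        apply Nat.dvd_antisymm _ h4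
        apply orderOf_dvd_of_pow_eq_one
        rw [← pow_right, ← hx, pow_orderOf_eq_one]; rfl

end CfsgLib.Uthree
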