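import Mathlib

/-! the Weil representation of the symplectic group, odd characteristic (helper26) -/
set_option autoImplicit false
set_option linter.unusedSectionVars false

namespace CfsgLib.Weil

open Matrix Module

variable {l : Type} [Fintype l] [DecidableEq l] {F : Type*} [Field F]

/-- the symplectic form -/
def B (v w : l ⊕ l → F) : F := (v ∘ Sum.inr) ⬝ᵥ (w ∘ Sum.inl) - (w ∘ Sum.inr) ⬝ᵥ (v ∘ Sum.inl)

theorem B_add_left (u v w : l ⊕ l → F) : B (u + v) w = B u w + B v w := by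
  unfold B
  rw [show (u + v) ∘ Sum.inl = u ∘ Sum.inl + v ∘ Sum.inl from rfl, show (u + v) ∘ Sum.inr = u ∘ Sum.inr + v ∘ Sum.inr from rfl,
    add_dotProduct, dotProduct_add]
  ring

theorem B_neg_left (u w : l ⊕ l → F) : B (-u) w = - B u w := by
  unfold B
  rw [show (-u) ∘ Sum.inl = -(u ∘ Sum.inl) from rfl, show (-u) ∘ Sum.inr = -(u ∘ Sum.inr) from rfl,
    neg_dotProduct, dotProduct_neg]
  ring

theorem B_swap (u w : l ⊕ l → F) : B u w = - B w u := by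
  unfold B; ring

theorem B_self (u : l ⊕ l → F) : B u u = 0 := by
  unfold B; ring

theorem B_eq (v w : l ⊕ l → F) : B v w = (v ⬝ᵥ (J l F *ᵥ w)) := by
  have : J l F *ᵥ w = Sum.elim (-(w ∘ Sum.inr)) (w ∘ Sum.inl) := by
    rw [J, fromBlocks_mulVec, zero_mulVec, zero_mulVec, zero_add, add_zero, neg_mulVec, one_mulVec, one_mulVec]
  rw [this]
  have h2 : v = Sum.elim (v ∘ Sum.inl) (v ∘ Sum.inr) := by
    funext i; cases i <;> rfl
  conv_rhs => rw [h2]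
  rw [sumElim_dotProduct_sumElim, dotProduct_neg]
  unfold B
  rw [dotProduct_comm (w ∘ Sum.inr)]
  ring

theorem B_g (g : symplecticGroup l F) (v w : l ⊕ l → F) :
    B ((g : Matrix (l ⊕ l) (l ⊕ l) F) *ᵥ v) ((g : Matrix (l ⊕ l) (l ⊕ l) F) *ᵥ w) = B v w := by
  have hg := SymplecticGroup.mem_iff'.mp g.2
  rw [B_eq, B_eq, mulVec_mulVec, dotProduct_comm, dotProduct_mulVec, ← mulVec_transpose, mulVec_mulVec, ← Matrix.mul_assoc, hg,
    dotProduct_comm]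

variable (ψ : AddChar F ℂ)

/-- Heisenberg operators -/
def E (v : l ⊕ l → F) : ((l → F) → ℂ) →ₗ[ℂ] ((l → F) → ℂ) where
  toFun f := fun t => ψ (2⁻¹ * ((v ∘ Sum.inr) ⬝ᵥ (v ∘ Sum.inl)) + (v ∘ Sum.inl) ⬝ᵥ t) * f (t + v ∘ Sum.inr)
  map_add' f g := by funext t; simp only [Pi.add_apply]; ring
  map_smul' c f := by funext t; simp only [Pi.smul_apply, smul_eq_mul, RingHom.id_apply]; ring

theorem E_apply (v : l ⊕ l → F) (f : (l → F) → ℂ) (t : l → F) :
    E ψ v f t = ψ (2⁻¹ * ((v ∘ Sum.inr) ⬝ᵥ (v ∘ Sum.inl)) + (v ∘ Sum.inl) ⬝ᵥ t) * f (t + v ∘ Sum.inr) := rfl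

theorem E_zero : E ψ (0 : l ⊕ l → F) = 1 := by
  apply LinearMap.ext
  intro f
  funext t
  rw [E_apply, show (0 : l ⊕ l → F) ∘ Sum.inr = 0 from rfl, show (0 : l ⊕ l → F) ∘ Sum.inl = 0 from rfl, zero_dotProduct,
    zero_dotProduct, mul_zero, add_zero, add_zero, AddChar.map_zero_eq_one, one_mul]
  rfl

theorem E_mul (h2 : (2 : F) ≠ 0) (v w : l ⊕ l → F) : E ψ v * E ψ w = ψ (2⁻¹ * B v w) • E ψ (v + w) := by
  apply LinearMap.ext
  intro f
  funext t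
  rw [Module.End.mul_apply, LinearMap.smul_apply, Pi.smul_apply, smul_eq_mul, E_apply, E_apply, E_apply, ← mul_assoc, ← mul_assoc,
    ← AddChar.map_add_eq_mul, ← AddChar.map_add_eq_mul]
  rw [show (v + w) ∘ Sum.inr = v ∘ Sum.inr + w ∘ Sum.inr from rfl, show (v + w) ∘ Sum.inl = v ∘ Sum.inl + w ∘ Sum.inl from rfl,
    ← add_assoc t]
  congr 2
  unfold B
  simp only [add_dotProduct, dotProduct_add]
  rw [dotProduct_comm (w ∘ Sum.inl) (v ∘ Sum.inr)]
  field_simp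
  ring

theorem E_mul_neg (h2 : (2 : F) ≠ 0) (v : l ⊕ l → F) : E ψ v * E ψ (-v) = 1 := by
  rw [E_mul ψ h2, B_swap, B_neg_left, B_self, neg_zero, neg_zero, mul_zero, AddChar.map_zero_eq_one, one_smul, add_neg_cancel,
    E_zero]

/-- the parity operator -/
def P (l : Type) (F : Type*) [Field F] : ((l → F) → ℂ) →ₗ[ℂ] ((l → F) → ℂ) where
  toFun f := fun t => f (-t)
  map_add' f g := rfl
  map_smul' c f := rfl

theorem P_mul_P : P l F * P l F = 1 := by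
  apply LinearMap.ext
  intro f
  funext t
  change f (- -t) = f t
  rw [neg_neg]

theorem P_E (v : l ⊕ l → F) : P l F * E ψ v = E ψ (-v) * P l F := by
  apply LinearMap.ext
  intro f
  funext t
  change ψ (2⁻¹ * ((v ∘ Sum.inr) ⬝ᵥ (v ∘ Sum.inl)) + (v ∘ Sum.inl) ⬝ᵥ (-t)) * f (-t + v ∘ Sum.inr) =
    ψ (2⁻¹ * (((-v) ∘ Sum.inr) ⬝ᵥ ((-v) ∘ Sum.inl)) + ((-v) ∘ Sum.inl) ⬝ᵥ t) * f (-(t + (-v) ∘ Sum.inr))
  rw [show (-v) ∘ Sum.inr = -(v ∘ Sum.inr) from rfl, show (-v) ∘ Sum.inl = -(v ∘ Sum.inl) from rfl, neg_dotProduct_neg,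
    neg_dotProduct, dotProduct_neg, neg_add, neg_neg]

variable [Fintype F]

/-- the intertwining operators -/
noncomputable def T (g : symplecticGroup l F) : ((l → F) → ℂ) →ₗ[ℂ] ((l → F) → ℂ) :=
  ∑ v : l ⊕ l → F, E ψ ((g : Matrix (l ⊕ l) (l ⊕ l) F) *ᵥ v) * E ψ (-v)

theorem T_E (h2 : (2 : F) ≠ 0) (g : symplecticGroup l F) (w : l ⊕ l → F) :
    T ψ g * E ψ w = E ψ ((g : Matrix (l ⊕ l) (l ⊕ l) F) *ᵥ w) * T ψ g := by
  unfold T
  rw [Finset.sum_mul, Finset.mul_sum]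
  symm
  refine Fintype.sum_equiv (Equiv.addLeft w) _ _ fun v => ?_
  rw [Equiv.coe_addLeft, ← mul_assoc, E_mul ψ h2, B_g, mul_assoc, E_mul ψ h2, ← mulVec_add, neg_add, B_add_left, B_neg_left,
    B_neg_left, B_self, neg_zero, zero_add, ← B_swap, smul_mul_assoc, mul_smul_comm]
  congr 2
  rw [add_comm (-w), neg_add_cancel_right]

theorem T_P (g : symplecticGroup l F) : P l F * T ψ g = T ψ g * P l F := by
  unfold T
  rw [Finset.sum_mul, Finset.mul_sum]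
  refine Fintype.sum_equiv (Equiv.neg _) _ _ fun v => ?_
  rw [← mul_assoc, P_E, mul_assoc, P_E, Equiv.neg_apply, mulVec_neg, mul_assoc]

end CfsgLib.Weil
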