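import Cfsg.Agent.LibWeil1
import Cfsg.Agent.LibWt2

/-! the Weil representation: intertwining operators (helper26) -/
set_option autoImplicit false
set_option linter.unusedSectionVars false

namespace CfsgLib.Weil

open Matrix Module

variable {l : Type} [Fintype l] [DecidableEq l] {F : Type*} [Field F] [Fintype F] [DecidableEq F] {ψ : AddChar F ℂ}

theorem sum_psi (hψ : ψ ≠ 1) (y : l → F) : ∑ t : l → F, ψ (y ⬝ᵥ t) = if y = 0 then (Fintype.card (l → F) : ℂ) else 0 := by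
  let χ : AddChar (l → F) ℂ := ⟨fun t => ψ (y ⬝ᵥ t), by rw [dotProduct_zero, AddChar.map_zero_eq_one],
    fun a b => by rw [dotProduct_add, AddChar.map_add_eq_mul]⟩
  have h1 : ∑ t : l → F, ψ (y ⬝ᵥ t) = ∑ t, χ t := rfl
  classical
  rw [h1, AddChar.sum_eq_ite]
  have h2 : χ = 0 ↔ y = 0 := by
    constructor
    · intro h
      by_contra hy
      apply hψ
      ext c
      obtain ⟨a, ha, -⟩ := CfsgLib.WtQ.exists_dual hy hy
      have h3 := DFunLike.congr_fun h (c • a)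
      change ψ (y ⬝ᵥ (c • a)) = 1 at h3
      rw [dotProduct_smul, dotProduct_comm, ha, smul_eq_mul, mul_one] at h3
      rw [h3]; rfl
    · rintro rfl
      ext t
      change ψ (0 ⬝ᵥ t) = 1
      rw [zero_dotProduct, AddChar.map_zero_eq_one]
  by_cases hy : y = 0
  · rw [if_pos hy, if_pos (h2.mpr hy)]
  · rw [if_neg hy, if_neg (fun h => hy (h2.mp h))]

/-- the trace -/
def Φ (X : ((l → F) → ℂ) →ₗ[ℂ] ((l → F) → ℂ)) : ℂ := ∑ t, X (Pi.single t 1) t

theorem Φ_E (hψ : ψ ≠ 1) (v : l ⊕ l → F) : Φ (E ψ v) = if v = 0 then (Fintype.card (l → F) : ℂ) else 0 := by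
  unfold Φ
  simp only [E_apply]
  by_cases hx : v ∘ Sum.inr = 0
  · rw [hx]
    simp only [zero_dotProduct, mul_zero, zero_add, add_zero, Pi.single_eq_same, mul_one]
    rw [sum_psi hψ]
    have : v = 0 ↔ v ∘ Sum.inl = 0 := by
      constructor
      · rintro rfl; rfl
      · intro h
        funext i
        rcases i with i | i
        · exact congrFun h i
        · exact congrFun hx i
    by_cases hv : v = 0
    · rw [if_pos hv, if_pos (this.mp hv)]
    · rw [if_neg hv, if_neg (fun h => hv (this.mpr h))]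
  · rw [if_neg (fun h => hx (by rw [h]; rfl))]
    refine Finset.sum_eq_zero fun t _ => ?_
    rw [Pi.single_eq_of_ne, mul_zero]
    intro h
    exact hx (left_eq_add.mp h.symm)

theorem T_ne_zero (h2 : (2 : F) ≠ 0) (hψ : ψ ≠ 1) (g : symplecticGroup l F) : T ψ g ≠ 0 := by
  intro h0
  have h1 : Φ (T ψ g) = (Finset.univ.filter fun v : l ⊕ l → F => (g : Matrix (l ⊕ l) (l ⊕ l) F) *ᵥ v + -v = 0).card *
      (Fintype.card (l → F) : ℂ) := by
    have e : Φ (T ψ g) = ∑ v : l ⊕ l → F, Φ (E ψ ((g : Matrix (l ⊕ l) (l ⊕ l) F) *ᵥ v) * E ψ (-v)) := by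
      unfold Φ T
      rw [Finset.sum_comm]
      refine Finset.sum_congr rfl fun t _ => ?_
      rw [LinearMap.sum_apply, Finset.sum_apply]
    rw [e, Finset.card_filter, Nat.cast_sum, Finset.sum_mul]
    refine Finset.sum_congr rfl fun v _ => ?_
    rw [E_mul ψ h2]
    have e2 : ∀ (c : ℂ) (X : ((l → F) → ℂ) →ₗ[ℂ] ((l → F) → ℂ)), Φ (c • X) = c * Φ X := by
      intro c X
      unfold Φ
      rw [Finset.mul_sum]; rfl
    rw [e2, Φ_E hψ]
    by_cases h : (g : Matrix (l ⊕ l) (l ⊕ l) F) *ᵥ v + -v = 0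
    · rw [if_pos h, if_pos h]
      have h3 : (g : Matrix (l ⊕ l) (l ⊕ l) F) *ᵥ v = v := by rwa [← sub_eq_add_neg, sub_eq_zero] at h
      rw [h3, B_swap, B_neg_left, B_self, neg_zero, neg_zero, mul_zero, AddChar.map_zero_eq_one]
      push_cast; rfl
    · rw [if_neg h, if_neg h]
      simp
  rw [h0] at h1
  have h3 : Φ (0 : ((l → F) → ℂ) →ₗ[ℂ] ((l → F) → ℂ)) = 0 := by
    unfold Φ; simp
  rw [h3] at h1
  have h4 : (0 : l ⊕ l → F) ∈ (Finset.univ.filter fun v : l ⊕ l → F => (g : Matrix (l ⊕ l) (l ⊕ l) F) *ᵥ v + -v = 0) := by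
    simp
  have h5 : (Finset.univ.filter fun v : l ⊕ l → F => (g : Matrix (l ⊕ l) (l ⊕ l) F) *ᵥ v + -v = 0).card ≠ 0 :=
    Finset.card_ne_zero_of_mem h4
  have h6 : Fintype.card (l → F) ≠ 0 := Fintype.card_ne_zero
  rcases mul_eq_zero.mp h1.symm with h7 | h7
  · exact h5 (by exact_mod_cast h7)
  · exact h6 (by exact_mod_cast h7)

/-- irreducibility of the Schroedinger model -/
theorem irred (hψ : ψ ≠ 1) (U : Submodule ℂ ((l → F) → ℂ)) (hU : U ≠ ⊥) (hinv : ∀ v, ∀ f ∈ U, E ψ v f ∈ U) : U = ⊤ := by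
  obtain ⟨f, hf, hf0⟩ := Submodule.exists_mem_ne_zero_of_ne_bot hU
  obtain ⟨s, hs⟩ := Function.ne_iff.mp hf0
  -- projection to s
  have h1 : Pi.single s (1 : ℂ) ∈ U := by
    have h2 : (∑ y : l → F, ψ (-(y ⬝ᵥ s)) • E ψ (Sum.elim y 0) f) ∈ U :=
      Submodule.sum_mem _ fun y _ => Submodule.smul_mem _ _ (hinv _ f hf)
    have h3 : (∑ y : l → F, ψ (-(y ⬝ᵥ s)) • E ψ (Sum.elim y 0) f) = ((Fintype.card (l → F) : ℂ) * f s) • Pi.single s (1 : ℂ) := by
      funext t
      rw [Finset.sum_apply]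
      have h4 : ∀ y : l → F, (ψ (-(y ⬝ᵥ s)) • E ψ (Sum.elim y 0) f) t = ψ ((t - s) ⬝ᵥ y) * f t := by
        intro y
        rw [Pi.smul_apply, smul_eq_mul, E_apply]
        have e1 : (Sum.elim y (0 : l → F)) ∘ Sum.inr = 0 := rfl
        have e2 : (Sum.elim y (0 : l → F)) ∘ Sum.inl = y := rfl
        rw [e1, e2, zero_dotProduct, mul_zero, zero_add, add_zero, ← mul_assoc, ← AddChar.map_add_eq_mul, dotProduct_comm _ y,
          dotProduct_sub]
        congr 2; ring
      rw [Finset.sum_congr rfl fun y _ => h4 y, ← Finset.sum_mul, sum_psi hψ]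
      rw [Pi.smul_apply, smul_eq_mul]
      by_cases ht : t = s
      · subst ht
        rw [sub_self, if_pos rfl, Pi.single_eq_same, mul_one]
      · rw [if_neg (fun h => ht (sub_eq_zero.mp h)), Pi.single_eq_of_ne ht, zero_mul, mul_zero]
    rw [h3] at h2
    have h5 : (Fintype.card (l → F) : ℂ) * f s ≠ 0 := mul_ne_zero (Nat.cast_ne_zero.mpr Fintype.card_ne_zero) hs
    exact (Submodule.smul_mem_iff _ h5).mp h2
  have h6 : ∀ t, Pi.single t (1 : ℂ) ∈ U := by
    intro t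
    have h7 := hinv (Sum.elim 0 (s - t)) _ h1
    have h8 : E ψ (Sum.elim 0 (s - t)) (Pi.single s (1 : ℂ)) = Pi.single t (1 : ℂ) := by
      funext r
      rw [E_apply]
      have e1 : (Sum.elim (0 : l → F) (s - t)) ∘ Sum.inr = s - t := rfl
      have e2 : (Sum.elim (0 : l → F) (s - t)) ∘ Sum.inl = 0 := rfl
      rw [e1, e2, dotProduct_zero, zero_dotProduct, mul_zero, add_zero, AddChar.map_zero_eq_one, one_mul]
      by_cases hr : r = t
      · subst hr
        rw [add_sub_cancel, Pi.single_eq_same, Pi.single_eq_same]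
      · rw [Pi.single_eq_of_ne hr, Pi.single_eq_of_ne]
        intro h
        apply hr
        rw [← sub_eq_zero]
        have : r + (s - t) - s = 0 := by rw [h, sub_self]
        rw [← this]; abel
    rwa [h8] at h7
  rw [eq_top_iff]
  intro g _
  have : g = ∑ t, g t • Pi.single t (1 : ℂ) := by
    funext r
    rw [Finset.sum_apply, Finset.sum_eq_single r]
    · simp
    · intro t _ ht
      rw [Pi.smul_apply, Pi.single_eq_of_ne (Ne.symm ht), smul_zero]
    · intro h; exact absurd (Finset.mem_univ _) h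
  rw [this]
  exact Submodule.sum_mem _ fun t _ => Submodule.smul_mem _ _ (h6 t)

theorem T_inj (h2 : (2 : F) ≠ 0) (hψ : ψ ≠ 1) (g : symplecticGroup l F) : Function.Injective (T ψ g) := by
  rw [← LinearMap.ker_eq_bot]
  by_contra hk
  have h1 := irred hψ (LinearMap.ker (T ψ g)) hk (fun v f hf => by
    rw [LinearMap.mem_ker] at hf ⊢
    have := LinearMap.congr_fun (T_E ψ h2 g v) f
    rw [Module.End.mul_apply, Module.End.mul_apply, hf, map_zero] at this
    exact this)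
  exact T_ne_zero h2 hψ g (LinearMap.ker_eq_top.mp h1)

/-- Schur -/
theorem schur (hψ : ψ ≠ 1) (X : ((l → F) → ℂ) →ₗ[ℂ] ((l → F) → ℂ)) (hX : ∀ v, X * E ψ v = E ψ v * X) :
    ∃ c : ℂ, X = c • (1 : ((l → F) → ℂ) →ₗ[ℂ] ((l → F) → ℂ)) := by
  obtain ⟨c, hc⟩ := Module.End.exists_eigenvalue X
  refine ⟨c, ?_⟩
  have h1 := irred hψ (LinearMap.ker (X - c • (1 : ((l → F) → ℂ) →ₗ[ℂ] ((l → F) → ℂ)))) (by
    intro h
    obtain ⟨w, hw⟩ := hc.exists_hasEigenvector
    have : w ∈ LinearMap.ker (X - c • (1 : ((l → F) → ℂ) →ₗ[ℂ] ((l → F) → ℂ))) := by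
      rw [LinearMap.mem_ker, LinearMap.sub_apply, hw.apply_eq_smul]
      exact sub_self _
    rw [h, Submodule.mem_bot] at this
    exact hw.2 this) (fun v f hf => by
    rw [LinearMap.mem_ker, LinearMap.sub_apply, sub_eq_zero] at hf ⊢
    have := LinearMap.congr_fun (hX v) f
    rw [Module.End.mul_apply, Module.End.mul_apply, hf] at this
    rw [this]
    change E ψ v (c • f) = c • E ψ v f
    rw [map_smul])
  rw [LinearMap.ker_eq_top, sub_eq_zero] at h1
  exact h1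

/-- intertwiners are unique up to scalars -/
theorem unique (h2 : (2 : F) ≠ 0) (hψ : ψ ≠ 1) (g : symplecticGroup l F) (X : ((l → F) → ℂ) →ₗ[ℂ] ((l → F) → ℂ))
    (hX : ∀ v, X * E ψ v = E ψ ((g : Matrix (l ⊕ l) (l ⊕ l) F) *ᵥ v) * X) : ∃ c : ℂ, X = c • T ψ g := by
  let e : ((l → F) → ℂ) ≃ₗ[ℂ] ((l → F) → ℂ) := LinearEquiv.ofInjectiveEndo (T ψ g) (T_inj h2 hψ g)
  have he : ∀ f, e f = T ψ g f := fun f => rfl
  have he' : ∀ f, T ψ g (e.symm f) = f := fun f => by rw [← he, e.apply_symm_apply]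
  obtain ⟨c, hc⟩ := schur hψ ((e.symm : ((l → F) → ℂ) →ₗ[ℂ] ((l → F) → ℂ)) * X) (fun v => by
    apply LinearMap.ext
    intro f
    apply T_inj h2 hψ g
    have h3 := LinearMap.congr_fun (hX v) f
    have h4 := LinearMap.congr_fun (T_E ψ h2 g v) (e.symm (X f))
    rw [Module.End.mul_apply, Module.End.mul_apply] at h3 h4
    rw [Module.End.mul_apply, Module.End.mul_apply, Module.End.mul_apply, Module.End.mul_apply]
    rw [he'] at h4
    change T ψ g (e.symm (X (E ψ v f))) = T ψ g (E ψ v (e.symm (X f)))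
    rw [he', h4, h3])
  refine ⟨c, ?_⟩
  apply LinearMap.ext
  intro f
  have h5 := congrArg (T ψ g) (LinearMap.congr_fun hc f)
  change T ψ g (e.symm (X f)) = T ψ g (c • f) at h5
  rw [he', map_smul] at h5
  exact h5

theorem T_mul (h2 : (2 : F) ≠ 0) (hψ : ψ ≠ 1) (g h : symplecticGroup l F) : ∃ c : ℂ, T ψ g * T ψ h = c • T ψ (g * h) := by
  refine unique h2 hψ (g * h) _ fun v => ?_
  rw [mul_assoc, T_E ψ h2, ← mul_assoc, T_E ψ h2, mul_assoc, mulVec_mulVec]
  rfl

end CfsgLib.Weil
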