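import Cfsg.Agent.LibWeil2

/-! the Weil representation: odd part (helper26) -/
set_option autoImplicit false
set_option linter.unusedSectionVars false

namespace CfsgLib.Weil

open Matrix Module

variable {l : Type} [Fintype l] [DecidableEq l] {F : Type*} [Field F]

def Sm (l : Type) (F : Type*) [Field F] : Submodule ℂ ((l → F) → ℂ) := LinearMap.ker (P l F + 1)
def Sp (l : Type) (F : Type*) [Field F] : Submodule ℂ ((l → F) → ℂ) := LinearMap.ker (P l F - 1)

theorem mem_Sm {f : (l → F) → ℂ} : f ∈ Sm l F ↔ P l F f = -f := by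
  rw [Sm, LinearMap.mem_ker, LinearMap.add_apply, add_eq_zero_iff_eq_neg]; rfl

theorem mem_Sp {f : (l → F) → ℂ} : f ∈ Sp l F ↔ P l F f = f := by
  rw [Sp, LinearMap.mem_ker, LinearMap.sub_apply, sub_eq_zero]; rfl

variable [Fintype F] [DecidableEq F] {ψ : AddChar F ℂ}

theorem trace_P (h2 : (2 : F) ≠ 0) : LinearMap.trace ℂ ((l → F) → ℂ) (P l F) = 1 := by
  rw [LinearMap.trace_eq_matrix_trace ℂ (Pi.basisFun ℂ (l → F)), Matrix.trace, Finset.sum_eq_single (0 : l → F)]
  · rw [Matrix.diag_apply, LinearMap.toMatrix_apply, Pi.basisFun_apply, Pi.basisFun_repr]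
    change (Pi.single (0 : l → F) (1 : ℂ) : (l → F) → ℂ) (-0) = 1
    rw [neg_zero, Pi.single_eq_same]
  · intro t _ ht
    rw [Matrix.diag_apply, LinearMap.toMatrix_apply, Pi.basisFun_apply, Pi.basisFun_repr]
    change (Pi.single t (1 : ℂ) : (l → F) → ℂ) (-t) = 0
    rw [Pi.single_eq_of_ne]
    intro h
    apply ht
    have h3 : (2 : F) • t = 0 := by
      rw [two_smul]
      nth_rewrite 1 [← h]
      exact neg_add_cancel t
    exact (smul_eq_zero.mp h3).resolve_left h2
  · intro h; exact absurd (Finset.mem_univ _) h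

theorem P_sq (f : (l → F) → ℂ) : P l F (P l F f) = f := LinearMap.congr_fun P_mul_P f

theorem finrank_Sm (h2 : (2 : F) ≠ 0) : 2 * finrank ℂ (Sm l F) + 1 = Fintype.card F ^ Fintype.card l := by
  have h1 : LinearMap.IsProj (Sm l F) ((2⁻¹ : ℂ) • (1 - P l F)) := by
    refine ⟨fun f => ?_, fun f hf => ?_⟩
    · rw [mem_Sm, LinearMap.smul_apply, map_smul, LinearMap.sub_apply, map_sub, P_sq, ← smul_neg]
      congr 1
      change P l F f - f = -(f - P l F f)
      abel
    · rw [mem_Sm] at hf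
      rw [LinearMap.smul_apply, LinearMap.sub_apply, hf, sub_neg_eq_add]
      change (2⁻¹ : ℂ) • (f + f) = f
      rw [← two_smul ℂ f, smul_smul, inv_mul_cancel₀ two_ne_zero, one_smul]
  have h3 := h1.trace
  rw [map_smul, map_sub, trace_P h2, LinearMap.trace_one, Module.finrank_fintype_fun_eq_card, Fintype.card_fun,
    smul_eq_mul] at h3
  have h4 : ((2 * finrank ℂ (Sm l F) + 1 : ℕ) : ℂ) = ((Fintype.card F ^ Fintype.card l : ℕ) : ℂ) := by
    push_cast
    rw [← h3]
    push_cast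
    ring
  exact_mod_cast h4

theorem finrank_Sp (h2 : (2 : F) ≠ 0) : finrank ℂ (Sp l F) = finrank ℂ (Sm l F) + 1 := by
  have h1 : LinearMap.IsProj (Sp l F) ((2⁻¹ : ℂ) • (1 + P l F)) := by
    refine ⟨fun f => ?_, fun f hf => ?_⟩
    · rw [mem_Sp, LinearMap.smul_apply, map_smul, LinearMap.add_apply, map_add, P_sq]
      congr 1
      change P l F f + f = f + P l F f
      abel
    · rw [mem_Sp] at hf
      rw [LinearMap.smul_apply, LinearMap.add_apply, hf]
      change (2⁻¹ : ℂ) • (f + f) = f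
      rw [← two_smul ℂ f, smul_smul, inv_mul_cancel₀ two_ne_zero, one_smul]
  have h3 := h1.trace
  rw [map_smul, map_add, trace_P h2, LinearMap.trace_one, Module.finrank_fintype_fun_eq_card, Fintype.card_fun,
    smul_eq_mul] at h3
  have h5 := finrank_Sm (l := l) h2
  have h4 : ((finrank ℂ (Sp l F) : ℕ) : ℂ) = ((finrank ℂ (Sm l F) + 1 : ℕ) : ℂ) := by
    rw [← h3, ← h5]
    push_cast
    ring
  exact_mod_cast h4

theorem T_Sm (g : symplecticGroup l F) : ∀ f ∈ Sm l F, T ψ g f ∈ Sm l F := by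
  intro f hf
  rw [mem_Sm] at hf ⊢
  have := LinearMap.congr_fun (T_P ψ g) f
  rw [Module.End.mul_apply, Module.End.mul_apply, hf, map_neg] at this
  exact this

theorem T_Sp (g : symplecticGroup l F) : ∀ f ∈ Sp l F, T ψ g f ∈ Sp l F := by
  intro f hf
  rw [mem_Sp] at hf ⊢
  have := LinearMap.congr_fun (T_P ψ g) f
  rw [Module.End.mul_apply, Module.End.mul_apply, hf] at this
  exact this

noncomputable def tm (ψ : AddChar F ℂ) (g : symplecticGroup l F) : Module.End ℂ (Sm l F) := (T ψ g).restrict (T_Sm g)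
noncomputable def tp (ψ : AddChar F ℂ) (g : symplecticGroup l F) : Module.End ℂ (Sp l F) := (T ψ g).restrict (T_Sp g)

theorem tm_apply (g : symplecticGroup l F) (f : Sm l F) : ((tm ψ g f : Sm l F) : (l → F) → ℂ) = T ψ g f := rfl
theorem tp_apply (g : symplecticGroup l F) (f : Sp l F) : ((tp ψ g f : Sp l F) : (l → F) → ℂ) = T ψ g f := rfl

theorem det_tm (h2 : (2 : F) ≠ 0) (hψ : ψ ≠ 1) (g : symplecticGroup l F) : LinearMap.det (tm ψ g) ≠ 0 := by
  intro h
  have h1 := LinearMap.bot_lt_ker_of_det_eq_zero h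
  apply h1.ne'
  rw [LinearMap.ker_eq_bot]
  intro f f' hff
  have := congrArg Subtype.val hff
  exact Subtype.ext (T_inj h2 hψ g this)

theorem det_tp (h2 : (2 : F) ≠ 0) (hψ : ψ ≠ 1) (g : symplecticGroup l F) : LinearMap.det (tp ψ g) ≠ 0 := by
  intro h
  have h1 := LinearMap.bot_lt_ker_of_det_eq_zero h
  apply h1.ne'
  rw [LinearMap.ker_eq_bot]
  intro f f' hff
  have := congrArg Subtype.val hff
  exact Subtype.ext (T_inj h2 hψ g this)

theorem T_one (h2 : (2 : F) ≠ 0) : T ψ (1 : symplecticGroup l F) = (Fintype.card (l ⊕ l → F) : ℂ) • 1 := by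
  unfold T
  have : ∀ v : l ⊕ l → F, E ψ (((1 : symplecticGroup l F) : Matrix (l ⊕ l) (l ⊕ l) F) *ᵥ v) * E ψ (-v) = 1 := by
    intro v
    rw [show ((1 : symplecticGroup l F) : Matrix (l ⊕ l) (l ⊕ l) F) = 1 from rfl, one_mulVec, E_mul_neg ψ h2]
  rw [Finset.sum_congr rfl fun v _ => this v, Finset.sum_const, Finset.card_univ, Nat.cast_smul_eq_nsmul]

/-- the normalising scalar -/
noncomputable def cc (ψ : AddChar F ℂ) (g : symplecticGroup l F) : ℂ := LinearMap.det (tm ψ g) / LinearMap.det (tp ψ g)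

theorem cc_ne (h2 : (2 : F) ≠ 0) (hψ : ψ ≠ 1) (g : symplecticGroup l F) : cc ψ g ≠ 0 := div_ne_zero (det_tm h2 hψ g) (det_tp h2 hψ g)

theorem cc_mul (h2 : (2 : F) ≠ 0) (hψ : ψ ≠ 1) (g h : symplecticGroup l F) :
    (cc ψ g • T ψ g) * (cc ψ h • T ψ h) = cc ψ (g * h) • T ψ (g * h) := by
  obtain ⟨c, hc⟩ := T_mul h2 hψ g h
  have h1 : tm ψ g * tm ψ h = c • tm ψ (g * h) := by
    apply LinearMap.ext
    intro f
    apply Subtype.ext
    exact LinearMap.congr_fun hc (f : (l → F) → ℂ)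
  have h3 : tp ψ g * tp ψ h = c • tp ψ (g * h) := by
    apply LinearMap.ext
    intro f
    apply Subtype.ext
    exact LinearMap.congr_fun hc (f : (l → F) → ℂ)
  have d1 := congrArg LinearMap.det h1
  have d3 := congrArg LinearMap.det h3
  rw [map_mul, LinearMap.det_smul] at d1 d3
  rw [finrank_Sp h2, pow_succ] at d3
  have hc0 : c ≠ 0 := by
    intro h0
    rw [h0, mul_zero, zero_mul] at d3
    exact mul_ne_zero (det_tp h2 hψ g) (det_tp h2 hψ h) d3
  rw [smul_mul_smul_comm, hc, smul_smul]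
  congr 1
  unfold cc
  have e1 := det_tp h2 hψ g
  have e2 := det_tp h2 hψ h
  have e3 := det_tp h2 hψ (g * h)
  have e4 := det_tm h2 hψ (g * h)
  have hcN : c ^ finrank ℂ (Sm l F) ≠ 0 := pow_ne_zero _ hc0
  rw [div_mul_div_comm, d1, d3]
  field_simp

end CfsgLib.Weil
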