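import Cfsg.Agent.LibWeil3
import Cfsg.Agent.LibWt6
import Cfsg.Agent.LibCharBasic

/-! the Weil representation: irreducibility of the odd part (helper26) -/
set_option autoImplicit false
set_option linter.unusedSectionVars false

namespace CfsgLib.Weil

open Matrix Module CfsgLib.WtSp CfsgLib.Wt CfsgLib.WtQ

variable {l : Type} [Fintype l] [DecidableEq l] {F : Type*} [Field F]

/-- the multiplication operator of a symmetric matrix -/
def M (ψ : AddChar F ℂ) (S : Matrix l l F) : ((l → F) → ℂ) →ₗ[ℂ] ((l → F) → ℂ) where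
  toFun f := fun t => ψ (-(2⁻¹ * (t ⬝ᵥ (S *ᵥ t)))) * f t
  map_add' f g := by funext t; simp only [Pi.add_apply]; ring
  map_smul' c f := by funext t; simp only [Pi.smul_apply, smul_eq_mul, RingHom.id_apply]; ring

theorem M_apply (ψ : AddChar F ℂ) (S : Matrix l l F) (f : (l → F) → ℂ) (t : l → F) :
    M ψ S f t = ψ (-(2⁻¹ * (t ⬝ᵥ (S *ᵥ t)))) * f t := rfl

theorem M_E (ψ : AddChar F ℂ) (h2 : (2 : F) ≠ 0) (S : SymG l F) (v : l ⊕ l → F) :
    M ψ (S : Matrix l l F) * E ψ v =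
      E ψ (((jS l F (Multiplicative.ofAdd S) : symplecticGroup l F) : Matrix (l ⊕ l) (l ⊕ l) F) *ᵥ v) * M ψ (S : Matrix l l F) := by
  apply LinearMap.ext
  intro f
  funext t
  have hv : ((jS l F (Multiplicative.ofAdd S) : symplecticGroup l F) : Matrix (l ⊕ l) (l ⊕ l) F) *ᵥ v =
      Sum.elim (v ∘ Sum.inl + (S : Matrix l l F) *ᵥ (v ∘ Sum.inr)) (v ∘ Sum.inr) := by
    rw [jS_val, fromBlocks_mulVec, one_mulVec, zero_mulVec, one_mulVec, zero_add]
  rw [hv, Module.End.mul_apply, Module.End.mul_apply, M_apply, E_apply, E_apply, M_apply, Sum.elim_comp_inl, Sum.elim_comp_inr,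
    ← mul_assoc, ← mul_assoc, ← AddChar.map_add_eq_mul, ← AddChar.map_add_eq_mul]
  generalize v ∘ Sum.inr = x
  generalize v ∘ Sum.inl = y
  congr 2
  have hs : t ⬝ᵥ ((S : Matrix l l F) *ᵥ x) = x ⬝ᵥ ((S : Matrix l l F) *ᵥ t) := by
    rw [dotProduct_mulVec, ← mulVec_transpose, symG_t, dotProduct_comm]
  simp only [mulVec_add, dotProduct_add, add_dotProduct, hs, dotProduct_comm ((S : Matrix l l F) *ᵥ x) t]
  field_simp
  ring

theorem rk1_trivial [Fintype F] {n : ℕ} (hn : 1 ≤ n) (h2 : (2 : F) ≠ 0)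
    {V : Type*} [AddCommGroup V] [Module ℂ V] [FiniteDimensional ℂ V]
    (ρ : Representation ℂ (symplecticGroup (Fin n) F) V) (hd : 2 * finrank ℂ V < Fintype.card F ^ n - 1) (x : Fin n → F) (c : F) :
    ρ (jS (Fin n) F (Multiplicative.ofAdd (rk1 x c))) = 1 := by
  classical
  obtain ⟨X, hX, hQ, hcard, -, hz, -⟩ := weights ρ
  apply hz
  by_contra hcon
  push Not at hcon
  have h3 := count_odd h2 (by simp; omega) hX hQ hcon
  rw [Fintype.card_fin] at h3
  have h5 := h3.trans (Nat.mul_le_mul_left _ ((Finset.card_filter_le _ _).trans hcard))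
  omega

variable [Fintype F] [DecidableEq F] {ψ : AddChar F ℂ}

/-- the odd Weil representation -/
noncomputable def W (h2 : (2 : F) ≠ 0) (hψ : ψ ≠ 1) : Representation ℂ (symplecticGroup l F) (Sm l F) where
  toFun g := cc ψ g • tm ψ g
  map_one' := by
    have h1 := cc_mul h2 hψ (1 : symplecticGroup l F) 1
    rw [one_mul] at h1
    have h3 : cc ψ (1 : symplecticGroup l F) • T ψ (1 : symplecticGroup l F) = 1 := by
      rw [T_one h2, smul_smul] at h1 ⊢
      rw [smul_mul_smul_comm, one_mul] at h1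
      have h4 : cc ψ (1 : symplecticGroup l F) * (Fintype.card (l ⊕ l → F) : ℂ) ≠ 0 :=
        mul_ne_zero (cc_ne h2 hψ 1) (Nat.cast_ne_zero.mpr Fintype.card_ne_zero)
      generalize cc ψ (1 : symplecticGroup l F) * (Fintype.card (l ⊕ l → F) : ℂ) = z at *
      have h5 : z * z = z := by
        have h6 := LinearMap.congr_fun h1 (fun _ => (1 : ℂ))
        have h7 := congrFun h6 0
        simpa using h7
      have h8 : z = 1 := mul_left_cancel₀ h4 (by rw [h5, mul_one])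
      rw [h8, one_smul]
    apply LinearMap.ext
    intro f
    apply Subtype.ext
    exact LinearMap.congr_fun h3 (f : (l → F) → ℂ)
  map_mul' g h := by
    apply LinearMap.ext
    intro f
    apply Subtype.ext
    exact (LinearMap.congr_fun (cc_mul h2 hψ g h) (f : (l → F) → ℂ)).symm

theorem W_apply (h2 : (2 : F) ≠ 0) (hψ : ψ ≠ 1) (g : symplecticGroup l F) (f : Sm l F) :
    ((W h2 hψ g f : Sm l F) : (l → F) → ℂ) = cc ψ g • T ψ g f := rfl

theorem single_mem (x : l → F) : (Pi.single x (1 : ℂ) - Pi.single (-x) (1 : ℂ) : (l → F) → ℂ) ∈ Sm l F := by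
  rw [mem_Sm]
  funext t
  change (Pi.single x (1 : ℂ) - Pi.single (-x) (1 : ℂ) : (l → F) → ℂ) (-t) = -((Pi.single x (1 : ℂ) - Pi.single (-x) (1 : ℂ) : (l → F) → ℂ) t)
  rw [Pi.sub_apply, Pi.sub_apply, Pi.single_apply, Pi.single_apply, Pi.single_apply, Pi.single_apply]
  have h1 : (-t = x) ↔ (t = -x) := neg_eq_iff_eq_neg
  have h3 : (-t = -x) ↔ (t = x) := neg_inj
  simp only [h1, h3]
  ring

theorem W_rk1_ne (h2 : (2 : F) ≠ 0) (hψ : ψ ≠ 1) {i j : l} (hij : i ≠ j) :
    ∃ c : F, W h2 hψ (jS l F (Multiplicative.ofAdd (rk1 (Pi.single i 1) c))) ≠ 1 := by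
  by_contra hcon
  push Not at hcon
  apply hψ
  ext a
  rw [AddChar.one_apply]
  set S : SymG l F := rk1 (Pi.single i 1) (-2 * a) with hS
  have h1 := hcon (-2 * a)
  rw [← hS] at h1
  obtain ⟨c, hc⟩ := unique h2 hψ (jS l F (Multiplicative.ofAdd S)) (M ψ (S : Matrix l l F)) (M_E ψ h2 S)
  -- evaluate
  have key : ∀ x : l → F, x ≠ 0 → cc ψ (jS l F (Multiplicative.ofAdd S)) * ψ (-(2⁻¹ * (x ⬝ᵥ ((S : Matrix l l F) *ᵥ x)))) = c := by
    intro x hx
    have h3 := congrArg Subtype.val (LinearMap.congr_fun h1 ⟨_, single_mem x⟩)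
    rw [W_apply] at h3
    have h4 := LinearMap.congr_fun hc (Pi.single x (1 : ℂ) - Pi.single (-x) (1 : ℂ) : (l → F) → ℂ)
    rw [LinearMap.smul_apply] at h4
    have h5 := congrFun h3 x
    have h6 := congrFun h4 x
    rw [Pi.smul_apply, smul_eq_mul] at h5 h6
    rw [M_apply] at h6
    have h7 : (Pi.single x (1 : ℂ) - Pi.single (-x) (1 : ℂ) : (l → F) → ℂ) x = 1 := by
      rw [Pi.sub_apply, Pi.single_eq_same, Pi.single_eq_of_ne, sub_zero]
      intro h
      apply hx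
      have h8 : (2 : F) • x = 0 := by
        rw [two_smul]
        nth_rewrite 1 [h]
        exact neg_add_cancel x
      exact (smul_eq_zero.mp h8).resolve_left h2
    rw [h7, mul_one] at h6
    rw [h6, mul_left_comm, h5]
    change c * (Pi.single x (1 : ℂ) - Pi.single (-x) (1 : ℂ) : (l → F) → ℂ) x = c
    rw [h7, mul_one]
  have hSx : ∀ x : l → F, x ⬝ᵥ ((S : Matrix l l F) *ᵥ x) = -2 * a * (x i) ^ 2 := by
    intro x
    rw [hS]
    change x ⬝ᵥ (((-2 * a) • vecMulVec (Pi.single i 1) (Pi.single i 1)) *ᵥ x) = _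
    rw [smul_mulVec, dotProduct_smul, vecMulVec_mulVec, dotProduct_smul]
    simp
    left; ring
  have k1 := key (Pi.single i 1) (by simp)
  have k2 := key (Pi.single j 1) (by simp)
  rw [hSx] at k1 k2
  rw [Pi.single_eq_same] at k1
  rw [Pi.single_eq_of_ne hij] at k2
  rw [← k2] at k1
  have h9 := mul_left_cancel₀ (cc_ne h2 hψ _) k1
  have e1 : -(2⁻¹ * (-2 * a * (1 : F) ^ 2)) = a := by field_simp
  have e2 : -(2⁻¹ * (-2 * a * (0 : F) ^ 2)) = 0 := by ring
  rw [e1, e2, AddChar.map_zero_eq_one] at h9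
  exact h9

theorem irred_of {G V : Type*} [Group G] [Finite G] [AddCommGroup V] [Module ℂ V] (ρ : Representation ℂ G V) (g : G)
    (hg : ρ g ≠ 1) (h : ∀ S : Subrepresentation ρ, S.toSubmodule ≠ ⊤ → S.toRepresentation g = 1) : ρ.IsIrreducible := by
  have hnt : Nontrivial (Subrepresentation ρ) := by
    refine ⟨⊥, ⊤, fun h1 => hg ?_⟩
    apply LinearMap.ext
    intro v
    have h4 : ∀ v, v ∈ (⊤ : Subrepresentation ρ) := fun _ => trivial
    rw [← h1] at h4
    have h5 : ∀ v : V, v = 0 := h4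
    rw [h5 v, map_zero, map_zero]
  refine ⟨fun S => ?_⟩
  obtain ⟨Q, hQ⟩ := CfsgLib.CharBasic.exists_compl ρ S
  by_contra hcon
  push Not at hcon
  obtain ⟨hS1, hS2⟩ := hcon
  have hS1' : S.toSubmodule ≠ ⊥ := fun h => hS1 (Subrepresentation.toSubmodule_injective h)
  have hS2' : S.toSubmodule ≠ ⊤ := fun h => hS2 (Subrepresentation.toSubmodule_injective h)
  have hQ' : Q.toSubmodule ≠ ⊤ := by
    intro h1
    rw [h1] at hQ
    exact hS1' (hQ.disjoint.eq_bot_of_le le_top)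
  apply hg
  apply LinearMap.ext
  intro f
  have hf : f ∈ S.toSubmodule ⊔ Q.toSubmodule := by rw [hQ.sup_eq_top]; trivial
  obtain ⟨u, hu, w, hw, rfl⟩ := Submodule.mem_sup.mp hf
  rw [map_add]
  have e1 := congrArg Subtype.val (LinearMap.congr_fun (h S hS2') ⟨u, hu⟩)
  have e2 := congrArg Subtype.val (LinearMap.congr_fun (h Q hQ') ⟨w, hw⟩)
  change ρ g u = u at e1
  change ρ g w = w at e2
  rw [e1, e2]
  rfl

theorem irred_of_rk1 {n : ℕ} (hn : 1 ≤ n) (h2 : (2 : F) ≠ 0)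
    {V : Type*} [AddCommGroup V] [Module ℂ V] [FiniteDimensional ℂ V]
    (ρ : Representation ℂ (symplecticGroup (Fin n) F) V) (hd : 2 * finrank ℂ V + 1 = Fintype.card F ^ n)
    {x : Fin n → F} {c : F} (hc : ρ (jS (Fin n) F (Multiplicative.ofAdd (rk1 x c))) ≠ 1) : ρ.IsIrreducible := by
  refine irred_of _ _ hc fun S hS => ?_
  have hd1 : finrank ℂ S.toSubmodule < finrank ℂ V := Submodule.finrank_lt hS
  have hd2 : 2 * finrank ℂ S.toSubmodule < Fintype.card F ^ n - 1 := by omega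
  exact rk1_trivial hn h2 S.toRepresentation hd2 x c

theorem W_irreducible {n : ℕ} (hn : 2 ≤ n) (h2 : (2 : F) ≠ 0) (hψ : ψ ≠ 1) : (W (l := Fin n) h2 hψ).IsIrreducible := by
  have hij : (⟨0, by omega⟩ : Fin n) ≠ ⟨1, by omega⟩ := by
    intro h
    have := congrArg Fin.val h
    simp at this
  obtain ⟨c, hc⟩ := W_rk1_ne h2 hψ hij
  have hn1 : 1 ≤ n := by omega
  have hfr := finrank_Sm (l := Fin n) (F := F) h2
  rw [Fintype.card_fin] at hfr
  exact irred_of_rk1 hn1 h2 (W (l := Fin n) h2 hψ) hfr hc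
end CfsgLib.Weil
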