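import Mathlib
import Cfsg.Agent.LibLE11Syl
import Cfsg.Agent.LibSylChH12

/-!
# A transfer splitting (Wielandt) and generation by two conjugates (helper12)
-/

set_option autoImplicit false
set_option linter.style.haveILetI false
set_option linter.unusedSectionVars false

namespace CfsgLib.WielH12

open Cfsg Subgroup CfsgLib.LE11Syl CfsgLib.SylChH12
open scoped Pointwise

variable {G : Type*} [Group G] [Finite G]

theorem transfer_split {A : Type*} [CommGroup A] {M : Subgroup G} (φ : M →* A)
    (hTI : ∀ g ∉ M, ∀ x ∈ M, ∀ h : g⁻¹ * x * g ∈ M, φ ⟨g⁻¹ * x * g, h⟩ = 1) :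
    ∃ V : G →* A, ∀ m : M, V m = φ m := by
  classical
  refine ⟨φ.transfer, ?_⟩
  intro m
  haveI : Fintype (Quotient (MulAction.orbitRel (Subgroup.zpowers (m : G)) (G ⧸ M))) := Fintype.ofFinite _
  rw [MonoidHom.transfer_eq_prod_quotient_orbitRel_zpowers_quot]
  set q0 : Quotient (MulAction.orbitRel (Subgroup.zpowers (m : G)) (G ⧸ M)) := Quotient.mk _ (QuotientGroup.mk 1) with hq0
  have hfix : ∀ n : ℤ, ((m : G) ^ n) • (QuotientGroup.mk (1 : G) : G ⧸ M) = QuotientGroup.mk 1 := by
    intro n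
    rw [MulAction.Quotient.smul_mk]
    rw [QuotientGroup.eq]
    rw [smul_eq_mul, mul_one, mul_one]
    exact inv_mem (zpow_mem m.2 n)
  have hout : ∀ q : Quotient (MulAction.orbitRel (Subgroup.zpowers (m : G)) (G ⧸ M)), q.out = QuotientGroup.mk 1 → q = q0 := by
    intro q hq
    rw [← Quotient.out_eq q, hq]
  have hq0out : q0.out = QuotientGroup.mk 1 := by
    have h1 : Quotient.mk _ q0.out = q0 := Quotient.out_eq q0
    rw [hq0, Quotient.eq] at h1
    obtain ⟨⟨_, n, rfl⟩, hn⟩ := h1
    rw [← hn]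
    exact (hfix n)
  rw [Finset.prod_eq_single q0]
  · have hper : Function.minimalPeriod (fun x : G ⧸ M => (m : G) • x) q0.out = 1 := by
      rw [Function.minimalPeriod_eq_one_iff_isFixedPt, hq0out]
      have := hfix 1
      rwa [zpow_one] at this
    have hmem : q0.out.out ∈ M := by
      have h1 : (QuotientGroup.mk (q0.out.out) : G ⧸ M) = QuotientGroup.mk 1 := by
        rw [QuotientGroup.out_eq', hq0out]
      rw [QuotientGroup.eq, mul_one] at h1
      exact inv_mem_iff.1 h1
    have e : (⟨q0.out.out⁻¹ * (m : G) ^ Function.minimalPeriod (fun x : G ⧸ M => (m : G) • x) q0.out * q0.out.out,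
        QuotientGroup.out_conj_pow_minimalPeriod_mem M (m : G) q0.out⟩ : M) = (⟨_, hmem⟩ : M)⁻¹ * m * ⟨_, hmem⟩ := by
      apply Subtype.ext
      change _ = (q0.out.out)⁻¹ * (m : G) * q0.out.out
      dsimp only
      rw [hper, pow_one]
    rw [e, map_mul, map_mul, map_inv, mul_comm, mul_inv_cancel_left]
  · intro q _ hq
    have hnm : q.out.out ∉ M := by
      intro h
      apply hq
      apply hout
      rw [← QuotientGroup.out_eq' q.out, QuotientGroup.eq, mul_one]
      exact inv_mem h
    exact hTI _ hnm ((m : G) ^ _) (pow_mem m.2 _) _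
  · intro h
    exact absurd (Finset.mem_univ _) h

/-- the prime index case -/
theorem exists_normal {M H : Subgroup G} (hHM : H ≤ M) (hn : (H.subgroupOf M).Normal) (hp : (H.relIndex M).Prime)
    (hTI : ∀ g ∉ M, ∀ x ∈ M, g⁻¹ * x * g ∈ M → g⁻¹ * x * g ∈ H) :
    ∃ K : Subgroup G, K.Normal ∧ K ⊓ M = H ∧ ∀ a b : G, a * b * (b * a)⁻¹ ∈ K := by
  haveI := hn
  haveI : Fact (H.relIndex M).Prime := ⟨hp⟩
  have hcard : Nat.card (M ⧸ H.subgroupOf M) = H.relIndex M := rfl
  haveI : IsCyclic (M ⧸ H.subgroupOf M) := isCyclic_of_prime_card hcard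
  letI : CommGroup (M ⧸ H.subgroupOf M) := IsCyclic.commGroup
  obtain ⟨V, hV⟩ := transfer_split (QuotientGroup.mk' (H.subgroupOf M)) (fun g hg x hx h => by
    rw [QuotientGroup.mk'_apply, QuotientGroup.eq_one_iff, Subgroup.mem_subgroupOf]
    exact hTI g hg x hx h)
  refine ⟨V.ker, inferInstance, ?_, fun a b => by
    rw [MonoidHom.mem_ker, map_mul, map_inv, map_mul, map_mul, mul_comm (V b), mul_inv_cancel]⟩
  ext x
  rw [Subgroup.mem_inf, MonoidHom.mem_ker]
  constructor
  · rintro ⟨h1, h2⟩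
    rw [hV ⟨x, h2⟩, QuotientGroup.mk'_apply, QuotientGroup.eq_one_iff, Subgroup.mem_subgroupOf] at h1
    exact h1
  · intro hx
    refine ⟨?_, hHM hx⟩
    rw [hV ⟨x, hHM hx⟩, QuotientGroup.mk'_apply, QuotientGroup.eq_one_iff, Subgroup.mem_subgroupOf]
    exact hx

/-- a maximal subgroup which is normal has prime index -/
theorem prime_index {M : Type*} [Group M] [Finite M] {H : Subgroup M} [H.Normal] (h : IsCoatom H) : H.index.Prime := by
  haveI : Nontrivial (M ⧸ H) := by
    rw [QuotientGroup.nontrivial_iff]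
    exact h.1
  have hs : ∀ K : Subgroup (M ⧸ H), K = ⊥ ∨ K = ⊤ := by
    intro K
    have h1 : H ≤ K.comap (QuotientGroup.mk' H) := by
      intro x hx
      rw [Subgroup.mem_comap, QuotientGroup.mk'_apply, (QuotientGroup.eq_one_iff x).2 hx]
      exact one_mem _
    rcases h.le_iff.1 h1 with h2 | h2
    · right
      rw [← Subgroup.map_comap_eq_self_of_surjective (QuotientGroup.mk'_surjective H) K, h2]
      exact Subgroup.map_top_of_surjective _ (QuotientGroup.mk'_surjective H)
    · left
      rw [← Subgroup.map_comap_eq_self_of_surjective (QuotientGroup.mk'_surjective H) K, h2, Subgroup.map_eq_bot_iff,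
        QuotientGroup.ker_mk']
  obtain ⟨x, hx⟩ := exists_ne (1 : M ⧸ H)
  have hcyc : ∀ x : M ⧸ H, x ≠ 1 → Subgroup.zpowers x = ⊤ := by
    intro x hx
    rcases hs (Subgroup.zpowers x) with h1 | h1
    · exact absurd (Subgroup.zpowers_eq_bot.1 h1) hx
    · exact h1
  obtain ⟨q, hq, hqx⟩ := Nat.exists_prime_and_dvd (n := orderOf x) (fun h => hx (orderOf_eq_one_iff.1 h))
  have h3 : orderOf (x ^ (orderOf x / q)) = q := orderOf_pow_orderOf_div (orderOf_pos x).ne' hqx
  have h4 : x ^ (orderOf x / q) ≠ 1 := by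
    intro h
    rw [h, orderOf_one] at h3
    exact hq.one_lt.ne h3
  have h5 := hcyc _ h4
  change (Nat.card (M ⧸ H)).Prime
  rw [← Subgroup.card_top (G := M ⧸ H), ← h5, Nat.card_zpowers, h3]
  exact hq

theorem conj_le_iff {g : G} {A B : Subgroup G} : MulAut.conj g • A ≤ B ↔ A ≤ MulAut.conj g⁻¹ • B := by
  constructor
  · intro h
    have h1 : MulAut.conj g⁻¹ • (MulAut.conj g • A) ≤ MulAut.conj g⁻¹ • B := Subgroup.pointwise_smul_le_pointwise_smul_iff.2 h
    rwa [← mul_smul, ← map_mul, inv_mul_cancel, map_one, one_smul] at h1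
  · intro h
    have h1 : MulAut.conj g • A ≤ MulAut.conj g • (MulAut.conj g⁻¹ • B) := Subgroup.pointwise_smul_le_pointwise_smul_iff.2 h
    rwa [← mul_smul, ← map_mul, mul_inv_cancel, map_one, one_smul] at h1

theorem eq_of_conj_le {g : G} {A : Subgroup G} (h : MulAut.conj g • A ≤ A) : MulAut.conj g • A = A :=
  Subgroup.eq_of_le_of_card_ge h (by rw [card_conj])

theorem normal_of_conj {A : Subgroup G} (h : ∀ g : G, MulAut.conj g • A = A) : A.Normal := by
  refine ⟨fun x hx g => ?_⟩
  have h1 := Subgroup.smul_mem_pointwise_smul x (MulAut.conj g) A hx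
  rw [h g] at h1
  exact h1

theorem exists_normal' {H M : Subgroup G} (hHM : H ≤ M)
    (hcl : ∀ g : G, (H ⊔ MulAut.conj g • H) ⊓ M = H) (hmaxH : IsCoatom (H.subgroupOf M)) (hmaxM : IsCoatom M) :
    ∃ K : Subgroup G, K.Normal ∧ K ⊓ M = H := by
  have hHnorm : ∀ g ∈ M, MulAut.conj g • H = H := by
    intro g hg
    apply eq_of_conj_le
    have h1 : MulAut.conj g • H ≤ M := by
      rw [← conj_smul_of_mem hg]
      exact Subgroup.pointwise_smul_le_pointwise_smul_iff.2 hHM
    have h2 : MulAut.conj g • H ≤ (H ⊔ MulAut.conj g • H) ⊓ M := le_inf le_sup_right h1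
    rwa [hcl g] at h2
  haveI hn : (H.subgroupOf M).Normal := by
    refine ⟨fun x hx g => ?_⟩
    rw [Subgroup.mem_subgroupOf] at hx ⊢
    have h1 := Subgroup.smul_mem_pointwise_smul (x : G) (MulAut.conj (g : G)) H hx
    rw [hHnorm g g.2] at h1
    exact h1
  have hp : (H.relIndex M).Prime := prime_index hmaxH
  -- case: `M ∩ M^g ≤ H`
  by_cases hTI : ∀ g ∉ M, ∀ x ∈ M, g⁻¹ * x * g ∈ M → g⁻¹ * x * g ∈ H
  · obtain ⟨K, hK, hKM, _⟩ := exists_normal hHM hn hp hTI
    exact ⟨K, hK, hKM⟩
  push Not at hTI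
  obtain ⟨g, hg, x, hx, hxM, hxH⟩ := hTI
  -- y = g⁻¹ x g normalises H and H^(g⁻¹)
  set y := g⁻¹ * x * g with hy
  by_cases hHn : MulAut.conj g⁻¹ • H = H
  · -- g normalises H, so `H` is normal in G
    have hNe : normalizer (H : Set G) = ⊤ := by
      have h1 : M ≤ normalizer (H : Set G) := fun m hm => conj_smul_eq_iff.1 (hHnorm m hm)
      rcases hmaxM.le_iff.1 h1 with h2 | h2
      · exact h2
      · exfalso
        apply hg
        have h3 : g⁻¹ ∈ normalizer (H : Set G) := conj_smul_eq_iff.1 hHn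
        rw [h2] at h3
        exact inv_mem_iff.1 h3
    haveI : H.Normal := normalizer_eq_top_iff.1 hNe
    exact ⟨H, inferInstance, inf_eq_left.2 hHM⟩
  · set X := H ⊔ MulAut.conj g⁻¹ • H with hX
    have hyH : MulAut.conj y • H = H := hHnorm y hxM
    have hyH' : MulAut.conj y • (MulAut.conj g⁻¹ • H) = MulAut.conj g⁻¹ • H := by
      rw [← mul_smul, ← map_mul]
      have e : y * g⁻¹ = g⁻¹ * x := by rw [hy]; group
      rw [e, map_mul, mul_smul, hHnorm x hx]
    have hyX : MulAut.conj y • X = X := by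
      rw [hX, Subgroup.smul_sup, hyH, hyH']
    have hyN : y ∈ normalizer (X : Set G) := conj_smul_eq_iff.1 hyX
    have hXN : X ≤ normalizer (X : Set G) := Subgroup.le_normalizer
    have hMN : M ≤ normalizer (X : Set G) := by
      -- M = ⟨H, y⟩
      have h1 : H ⊔ zpowers y ≤ M := sup_le hHM (by rw [zpowers_le]; exact hxM)
      have h2 : (H ⊔ zpowers y).subgroupOf M = ⊤ := by
        rcases hmaxH.le_iff.1 (show H.subgroupOf M ≤ (H ⊔ zpowers y).subgroupOf M from
          Subgroup.comap_mono le_sup_left) with h3 | h3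
        · exact h3
        · exfalso
          apply hxH
          have h4 : (⟨y, hxM⟩ : M) ∈ (H ⊔ zpowers y).subgroupOf M := by
            rw [Subgroup.mem_subgroupOf]; exact mem_sup_right (mem_zpowers y)
          rw [h3, Subgroup.mem_subgroupOf] at h4
          exact h4
      rw [Subgroup.subgroupOf_eq_top] at h2
      refine h2.trans (sup_le ((le_sup_left : H ≤ X).trans hXN) ?_)
      rw [zpowers_le]; exact hyN
    have hNe : normalizer (X : Set G) = ⊤ := by
      rcases hmaxM.le_iff.1 hMN with h2 | h2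
      · exact h2
      · exfalso
        have h3 : X ≤ M := by rw [← h2]; exact hXN
        have h4 := hcl g⁻¹
        rw [← hX, inf_eq_left.2 h3] at h4
        apply hHn
        apply eq_of_conj_le
        have h5 : MulAut.conj g⁻¹ • H ≤ X := le_sup_right
        rwa [h4] at h5
    haveI : X.Normal := normalizer_eq_top_iff.1 hNe
    exact ⟨X, inferInstance, hcl g⁻¹⟩

theorem s3014 {H M : Subgroup G} (hHM : H ≤ M)
    (hcl : ∀ g : G, (H ⊔ H.map (MulAut.conj g).toMonoidHom) ⊓ M = H) (hmaxH : IsCoatom (H.subgroupOf M)) (hmaxM : IsCoatom M) :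
    normalClosure (H : Set G) ⊓ M = H := by
  obtain ⟨K, hK, hKM⟩ := exists_normal' hHM hcl hmaxH hmaxM
  apply le_antisymm
  · have h1 : normalClosure (H : Set G) ≤ K := by
      haveI := hK
      exact normalClosure_le_normal (show H ≤ K by rw [← hKM]; exact inf_le_left)
    calc normalClosure (H : Set G) ⊓ M ≤ K ⊓ M := inf_le_inf_right _ h1
      _ = H := hKM
  · exact le_inf subset_normalClosure hHM

theorem coatom_of_prime {M : Type*} [Group M] {H : Subgroup M} (h : H.index.Prime) : IsCoatom H := by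
  refine ⟨fun h1 => ?_, fun K hK => ?_⟩
  · rw [h1, Subgroup.index_top] at h
    exact Nat.not_prime_one h
  · have h1 := Subgroup.relIndex_mul_index hK.le
    rcases (Nat.dvd_prime h).1 (Dvd.intro _ h1) with h2 | h2
    · rw [Subgroup.relIndex_eq_one] at h2
      exact absurd h2 (not_le_of_gt hK)
    · rw [h2] at h1
      have h3 : K.index = 1 := by
        have h4 := h.pos
        exact Nat.eq_of_mul_eq_mul_left h4 (by rw [h1, mul_one])
      exact Subgroup.index_eq_one.1 h3

theorem s3015 [IsSimpleGroup G] (hG : ¬ IsMulCommutative G) (M H : Subgroup G) (hmaxM : IsCoatom M) (hHM : H ≤ M)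
    (hHn : (H.subgroupOf M).Normal) (hidx : (H.relIndex M).Prime) : ∃ g : G, H ⊔ MulAut.conj g • H = ⊤ := by
  by_contra hcon
  push Not at hcon
  have hG' : ¬ ∀ a b : G, a * b = b * a := fun h => hG ⟨⟨h⟩⟩
  have hMH : M ≠ H := by
    rintro rfl
    rw [Subgroup.relIndex_self] at hidx
    exact Nat.not_prime_one hidx
  have hMbot : M ≠ ⊥ := by
    intro h
    rw [h, Subgroup.relIndex_bot_right] at hidx
    exact Nat.not_prime_one hidx
  have hNM : normalizer (M : Set G) = M := by
    rcases hmaxM.le_iff.1 (Subgroup.le_normalizer (H := M)) with h1 | h1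
    · exfalso
      haveI : M.Normal := normalizer_eq_top_iff.1 h1
      rcases IsSimpleGroup.eq_bot_or_eq_top_of_normal M inferInstance with h2 | h2
      · exact hMbot h2
      · exact hmaxM.1 h2
    · exact h1
  have hmaxH : IsCoatom (H.subgroupOf M) := coatom_of_prime hidx
  have hHnorm : ∀ m ∈ M, MulAut.conj m • H = H := by
    intro m hm
    apply eq_of_conj_le
    intro z hz
    rw [mem_smul'] at hz
    have h1 := hHn.conj_mem ⟨m⁻¹ * z * m, hHM hz⟩ (Subgroup.mem_subgroupOf.2 hz) ⟨m, hm⟩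
    rw [Subgroup.mem_subgroupOf] at h1
    have e : m * (m⁻¹ * z * m) * m⁻¹ = z := by group
    have h2 : m * (m⁻¹ * z * m) * m⁻¹ ∈ H := h1
    rwa [e] at h2
  have hdich : ∀ X : Subgroup G, H ≤ X → X ⊓ M = H ∨ M ≤ X := by
    intro X hX
    rcases hmaxH.le_iff.1 (show H.subgroupOf M ≤ X.subgroupOf M from Subgroup.comap_mono hX) with h3 | h3
    · right; rwa [Subgroup.subgroupOf_eq_top] at h3
    · left
      have h4 := congrArg (Subgroup.map M.subtype) h3
      rw [Subgroup.subgroupOf_map_subtype, Subgroup.subgroupOf_map_subtype, inf_eq_left.2 hHM] at h4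
      exact h4
  have hdich2 : ∀ g : G, (H ⊔ MulAut.conj g • H) ⊓ M = H ∨ H ⊔ MulAut.conj g • H = M := by
    intro g
    rcases hdich _ (le_sup_left : H ≤ H ⊔ MulAut.conj g • H) with h | h
    · exact Or.inl h
    · rcases hmaxM.le_iff.1 h with h2 | h2
      · exact absurd h2 (hcon g)
      · exact Or.inr h2
  by_cases hTI : ∀ g ∉ M, ∀ x ∈ M, g⁻¹ * x * g ∈ M → g⁻¹ * x * g ∈ H
  · obtain ⟨K, hK, hKM, hcomm⟩ := exists_normal hHM hHn hidx hTI
    rcases IsSimpleGroup.eq_bot_or_eq_top_of_normal K hK with h | h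
    · apply hG'
      intro a b
      have := hcomm a b
      rw [h, Subgroup.mem_bot, mul_inv_eq_one] at this
      exact this
    · rw [h, top_inf_eq] at hKM
      exact hMH hKM
  by_cases hH : H = ⊥
  · apply hTI
    intro g hg x hx hxg
    by_contra hx1
    rw [hH, Subgroup.mem_bot] at hx1
    -- M has prime order
    have hcard : (Nat.card M).Prime := by
      rw [hH, Subgroup.relIndex_bot_left] at hidx
      exact hidx
    haveI : Fact (Nat.card M).Prime := ⟨hcard⟩
    have h1 : zpowers (g⁻¹ * x * g) = M := by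
      refine Subgroup.eq_of_le_of_card_ge (by rw [zpowers_le]; exact hxg) ?_
      have h2 : Nat.card (zpowers (g⁻¹ * x * g)) ∣ Nat.card M := Subgroup.card_dvd_of_le (by rw [zpowers_le]; exact hxg)
      rcases (Nat.dvd_prime hcard).1 h2 with h3 | h3
      · exfalso
        rw [Subgroup.card_eq_one, zpowers_eq_bot] at h3
        exact hx1 h3
      · exact h3.ge
    apply hg
    have h2 : MulAut.conj g⁻¹ • M = M := by
      symm
      refine Subgroup.eq_of_le_of_card_ge ?_ (by rw [card_conj])
      rw [← h1, zpowers_le, h1, mem_smul', inv_inv]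
      have e : g * (g⁻¹ * x * g) * g⁻¹ = x := by group
      rwa [e]
    have h3 := conj_smul_eq_iff.1 h2
    rw [hNM] at h3
    exact inv_mem_iff.1 h3
  have hHtop : H ≠ ⊤ := by
    intro h
    apply hmaxM.1
    rw [eq_top_iff, ← h]; exact hHM
  by_cases hcase : ∀ g : G, (H ⊔ MulAut.conj g • H) ⊓ M = H
  · obtain ⟨K, hK, hKM⟩ := exists_normal' hHM hcase hmaxH hmaxM
    rcases IsSimpleGroup.eq_bot_or_eq_top_of_normal K hK with h | h
    · rw [h, bot_inf_eq] at hKM
      exact hH hKM.symm
    · rw [h, top_inf_eq] at hKM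
      exact hMH hKM
  push Not at hcase
  obtain ⟨x, hx⟩ := hcase
  have hxM := (hdich2 x).resolve_left hx
  have hxnM : x ∉ M := by
    intro h
    rw [hHnorm x h, sup_idem] at hxM
    exact hMH hxM.symm
  have hH1 : MulAut.conj x • H ≤ M := by
    calc MulAut.conj x • H ≤ H ⊔ MulAut.conj x • H := le_sup_right
      _ = M := hxM
  have hM1 : MulAut.conj x • M = MulAut.conj x • H ⊔ MulAut.conj (x * x) • H := by
    conv_lhs => rw [← hxM]
    rw [Subgroup.smul_sup, ← mul_smul, ← map_mul]
  -- `⟨H, H₂⟩ ∩ M = H`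
  have hH2 : (H ⊔ MulAut.conj (x * x) • H) ⊓ M = H := by
    rcases hdich2 (x * x) with h | h
    · exact h
    · exfalso
      have h1 : MulAut.conj x • M ≤ M := by
        rw [hM1]
        refine sup_le hH1 ?_
        calc MulAut.conj (x * x) • H ≤ H ⊔ MulAut.conj (x * x) • H := le_sup_right
          _ = M := h
      have h2 := conj_smul_eq_iff.1 (eq_of_conj_le h1)
      rw [hNM] at h2
      exact hxnM h2
  set D := H ⊓ MulAut.conj x • H with hD
  have hDx : MulAut.conj x • D = D := by
    apply eq_of_conj_le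
    rw [hD, Subgroup.smul_inf, ← mul_smul, ← map_mul]
    refine le_inf ?_ inf_le_left
    calc MulAut.conj x • H ⊓ MulAut.conj (x * x) • H ≤ (H ⊔ MulAut.conj (x * x) • H) ⊓ M :=
          le_inf (inf_le_right.trans le_sup_right) (inf_le_left.trans hH1)
      _ = H := hH2
  have hxN : x ∈ normalizer (D : Set G) := conj_smul_eq_iff.1 hDx
  have hH1N : MulAut.conj x • H ≤ normalizer (D : Set G) := by
    intro z hz
    apply conj_smul_eq_iff.1
    rw [hD, Subgroup.smul_inf, hHnorm z (hH1 hz), conj_smul_of_mem hz]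
  have hHN : H ≤ normalizer (D : Set G) := by
    have h1 : MulAut.conj x⁻¹ • (MulAut.conj x • H) ≤ MulAut.conj x⁻¹ • normalizer (D : Set G) :=
      Subgroup.pointwise_smul_le_pointwise_smul_iff.2 hH1N
    rwa [← mul_smul, ← map_mul, inv_mul_cancel, map_one, one_smul, conj_smul_of_mem (inv_mem hxN)] at h1
  have hMN : M ≤ normalizer (D : Set G) := by
    rw [← hxM]; exact sup_le hHN hH1N
  have hNtop : normalizer (D : Set G) = ⊤ := by
    rcases hmaxM.le_iff.1 hMN with h | h
    · exact h
    · rw [h] at hxN; exact absurd hxN hxnM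
  haveI hDn : D.Normal := normalizer_eq_top_iff.1 hNtop
  have hDbot : D = ⊥ := by
    rcases IsSimpleGroup.eq_bot_or_eq_top_of_normal D hDn with h | h
    · exact h
    · exfalso
      apply hHtop
      rw [eq_top_iff, ← h]; exact inf_le_left
  have hcH : Nat.card H = H.relIndex M := by
    have h1 : ((MulAut.conj x • H).subgroupOf M) ⊓ H.subgroupOf M = ⊥ := by
      rw [eq_bot_iff]
      intro z hz
      obtain ⟨h2, h3⟩ := Subgroup.mem_inf.1 hz
      have h4 : (z : G) ∈ D := Subgroup.mem_inf.2 ⟨h3, h2⟩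
      rw [hDbot, Subgroup.mem_bot] at h4
      rw [Subgroup.mem_bot]
      exact Subtype.ext h4
    have h2 : (H.subgroupOf M).relIndex ((MulAut.conj x • H).subgroupOf M) = Nat.card ((MulAut.conj x • H).subgroupOf M) := by
      rw [← Subgroup.inf_relIndex_left, h1, Subgroup.relIndex_bot_left]
    have h3 : (H.subgroupOf M).relIndex ((MulAut.conj x • H).subgroupOf M) ∣ (H.subgroupOf M).index :=
      Subgroup.relIndex_dvd_index_of_normal _ _
    rw [h2, Nat.card_congr (Subgroup.subgroupOfEquivOfLe hH1).toEquiv, card_conj] at h3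
    rcases (Nat.dvd_prime hidx).1 h3 with h4 | h4
    · exact absurd (Subgroup.card_eq_one.1 h4) hH
    · exact h4
  haveI : Fact (H.relIndex M).Prime := ⟨hidx⟩
  have hcM : Nat.card M = (H.relIndex M) ^ 2 := by
    have h1 := Subgroup.relIndex_mul_relIndex ⊥ H M bot_le hHM
    rw [Subgroup.relIndex_bot_left, Subgroup.relIndex_bot_left, hcH] at h1
    rw [← h1, sq]
  have hMp : IsPGroup (H.relIndex M) M := IsPGroup.of_card hcM
  have hMsyl : IsSyl (H.relIndex M) M (⊤ : Subgroup G) := by
    have h1 : IsSyl (H.relIndex M) M M := ⟨le_rfl, hMp, by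
      rw [Subgroup.relIndex_self]
      exact fun h => hidx.one_lt.ne' (Nat.dvd_one.1 h)⟩
    exact h1.of_normalizer_le le_top (by rw [top_inf_eq, hNM])
  obtain ⟨P, hP⟩ := hMsyl.sylow_of_top
  have hMcomm : ∀ a ∈ M, ∀ b ∈ M, a * b = b * a := by
    intro a ha b hb
    have h1 := IsPGroup.commutative_of_card_eq_prime_sq (G := M) hcM ⟨a, ha⟩ ⟨b, hb⟩
    exact congrArg Subtype.val h1
  have hle : normalizer ((P : Subgroup G) : Set G) ≤ centralizer ((P : Subgroup G) : Set G) := by
    rw [hP, hNM]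
    intro a ha
    rw [mem_centralizer_iff]
    intro b hb
    exact hMcomm b hb a ha
  have hcompl := MonoidHom.ker_transferSylow_isComplement' P hle
  rcases IsSimpleGroup.eq_bot_or_eq_top_of_normal (MonoidHom.transferSylow P hle).ker inferInstance with h | h
  · rw [h] at hcompl
    have h1 := Subgroup.isComplement'_bot_left.1 hcompl
    rw [hP] at h1
    exact hmaxM.1 h1
  · rw [h] at hcompl
    have h1 := Subgroup.isComplement'_top_left.1 hcompl
    rw [hP] at h1
    exact hMbot h1

end CfsgLib.WielH12
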