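import Mathlib
import Cfsg.Agent.LibWielH12
import Cfsg.Agent.LibSylChH12b
import Cfsg.Agent.LibH2Thomp
import Cfsg.Agent.LibCores
import Cfsg.Prelude.Def_JComponents
import Cfsg.Prelude.Def_Involutions

/-!
# Strongly embedded local subgroups (helper12)
-/

set_option autoImplicit false
set_option linter.style.haveILetI false
set_option linter.unusedSectionVars false

namespace CfsgLib.WielH12

open Cfsg Subgroup CfsgLib.LE11Syl CfsgLib.SylChH12
open scoped Pointwise

variable {G : Type*} [Group G] [Finite G]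

theorem even_of_pgroup {T : Subgroup G} (hT : IsPGroup 2 T) (hT1 : T ≠ ⊥) : Even (Nat.card T) := by
  haveI : Fact (Nat.Prime 2) := ⟨Nat.prime_two⟩
  exact even_iff_two_dvd.2 (dvd_card_of_ne_bot hT hT1)

/-- normalizers of nontrivial 2-subgroups are in the strongly embedded subgroup -/
theorem se_norm {M : Subgroup G} (hse : IsStronglyEmbedded M) {T : Subgroup G} (hT : IsPGroup 2 T) (hT1 : T ≠ ⊥) (hTM : T ≤ M) :
    normalizer (T : Set G) ≤ M := by
  intro g hg
  by_contra hgM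
  have h1 := hse.2.2 g hgM
  have h2 : T ≤ M ⊓ M.map (MulAut.conj g).toMonoidHom := by
    refine le_inf hTM ?_
    change T ≤ MulAut.conj g • M
    rw [← conj_smul_eq_iff.2 hg]
    exact Subgroup.pointwise_smul_le_pointwise_smul_iff.2 hTM
  have h3 := Subgroup.card_dvd_of_le h2
  have h4 : 2 ∣ Nat.card T := even_iff_two_dvd.1 (even_of_pgroup hT hT1)
  rw [← Nat.not_even_iff_odd, even_iff_two_dvd] at h1
  exact h1 (h4.trans h3)

theorem se_climb {M : Subgroup G} (hse : IsStronglyEmbedded M) {T P : Subgroup G} (hP : IsPGroup 2 P) (hTP : T ≤ P) (hT1 : T ≠ ⊥)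
    (hTM : T ≤ M) : P ≤ M := by
  haveI : Fact (Nat.Prime 2) := ⟨Nat.prime_two⟩
  by_contra hcon
  have h1 : P ⊓ M < P := lt_of_le_of_ne inf_le_left (fun h => hcon (by rw [← h]; exact inf_le_right))
  obtain ⟨g, hgP, hgn, hgN⟩ := exists_mem_normalizer hP h1
  apply hgn
  refine Subgroup.mem_inf.2 ⟨hgP, ?_⟩
  refine se_norm hse (hP.to_le inf_le_left) ?_ inf_le_right hgN
  intro h
  apply hT1
  rw [eq_bot_iff, ← h]
  exact le_inf hTP hTM

theorem se_local {M : Subgroup G} (hse : IsStronglyEmbedded M) {T Q : Subgroup G} (hT : IsPGroup 2 T) (hT1 : T ≠ ⊥)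
    (hTM : T ≤ M) (hQ : IsPGroup 2 Q) (hQ1 : Q ≠ ⊥) (hTL : T ≤ normalizer (Q : Set G)) : normalizer (Q : Set G) ≤ M := by
  haveI : Fact (Nat.Prime 2) := ⟨Nat.prime_two⟩
  have h1 : IsPGroup 2 (T ⊔ Q : Subgroup G) := hT.to_sup_of_normal_right' hQ hTL
  have h2 : T ⊔ Q ≤ M := se_climb hse h1 le_sup_left hT1 hTM
  exact se_norm hse hQ hQ1 (le_sup_right.trans h2)

theorem se_of {M : Subgroup G} (hO : pCore 2 G = ⊥) (hM : IsTwoLocal M) (S : Sylow 2 G) (hSM : (S : Subgroup G) ≤ M)
    (hNS : normalizer ((S : Subgroup G) : Set G) ≤ M)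
    (key : ∀ T L : Subgroup G, IsPGroup 2 T → T ≠ ⊥ → T ≤ M → IsTwoLocal L → T ≤ L → L ≤ M) : IsStronglyEmbedded M := by
  haveI : Fact (Nat.Prime 2) := ⟨Nat.prime_two⟩
  obtain ⟨Q, hQ, hQ1, hMQ⟩ := id hM
  refine ⟨?_, ?_, ?_⟩
  · intro htop
    rw [htop] at hMQ
    haveI : Q.Normal := normalizer_eq_top_iff.1 hMQ.symm
    apply hQ1
    rw [eq_bot_iff, ← hO]
    exact CfsgLib.Cores.le_pCore inferInstance hQ
  · have h1 : Q ≤ M := by rw [hMQ]; exact Subgroup.le_normalizer
    exact (even_iff_two_dvd.2 ((even_iff_two_dvd.1 (even_of_pgroup hQ hQ1)).trans (Subgroup.card_dvd_of_le h1)))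
  · intro g hg
    by_contra hodd
    rw [Nat.not_odd_iff_even, even_iff_two_dvd] at hodd
    obtain ⟨t, ht⟩ := exists_prime_orderOf_dvd_card' 2 hodd
    have htz : IsPGroup 2 (zpowers (t : G)) := by
      apply IsPGroup.of_card (n := 1)
      rw [Nat.card_zpowers, Subgroup.orderOf_coe, ht, pow_one]
    have htz1 : zpowers (t : G) ≠ ⊥ := by
      intro h
      rw [zpowers_eq_bot] at h
      rw [← Subgroup.orderOf_coe, h, orderOf_one] at ht
      omega
    obtain ⟨ht1, ht2⟩ := Subgroup.mem_inf.1 t.2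
    change (t : G) ∈ MulAut.conj g • M at ht2
    have hloc : IsTwoLocal (MulAut.conj g • M) := by
      refine ⟨MulAut.conj g • Q, IsPGroup_conj hQ g, ?_, ?_⟩
      · intro h
        apply hQ1
        rw [← Subgroup.smul_bot (MulAut.conj g)] at h
        exact smul_left_cancel _ h
      · rw [hMQ, conj_normalizer]
    have hle := key (zpowers (t : G)) _ htz htz1 (by rw [zpowers_le]; exact ht1) hloc (by rw [zpowers_le]; exact ht2)
    have hgS : MulAut.conj g • (S : Subgroup G) ≤ M :=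
      (Subgroup.pointwise_smul_le_pointwise_smul_iff.2 hSM).trans hle
    have hS1 : IsSyl 2 (S : Subgroup G) M := (isSyl_top S).mono hSM le_top
    have hS2 : IsSyl 2 (MulAut.conj g • (S : Subgroup G)) M := (isSyl_top (g • S)).mono hgS le_top
    obtain ⟨m, hm, hm'⟩ := hS1.conj_eq hS2
    rw [← mul_smul, ← map_mul] at hm'
    have h5 := hNS (conj_smul_eq_iff.1 hm')
    apply hg
    have e : g = m⁻¹ * (m * g) := by group
    rw [e]
    exact mul_mem (inv_mem hm) h5

theorem norm_le_thompson (S : Subgroup G) : normalizer (S : Set G) ≤ normalizer ((thompsonSubgroupOf 2 S : Subgroup G) : Set G) := by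
  rw [CfsgLib.H2Thomp.thompsonSubgroupOf_eq]
  exact CfsgLib.H2Thomp.normalizer_le_Je 2 S

end CfsgLib.WielH12
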