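import Mathlib

/-! Maximality of the stabiliser of a partition in two halves (seat helper29). -/

namespace CfsgLib.Wr29

open Equiv

section gen
variable {α : Type*}

lemma app_inv (g : Perm α) (x : α) : g (g⁻¹ x) = x := by rw [← Perm.mul_apply, mul_inv_cancel, Perm.one_apply]

lemma inv_app (g : Perm α) (x : α) : g⁻¹ (g x) = x := by rw [← Perm.mul_apply, inv_mul_cancel, Perm.one_apply]

variable [DecidableEq α] (L : Subgroup (Perm α))

lemma rel_trans {x y z : α} (h1 : swap x y ∈ L) (h2 : swap y z ∈ L) : swap x z ∈ L := by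
  by_cases hxy : x = y
  · subst hxy; exact h2
  by_cases hxz : x = z
  · subst hxz; rw [swap_self]; exact L.one_mem
  have h3 := swap_mul_swap_mul_swap hxy hxz
  rw [swap_comm x z, ← h3]
  exact L.mul_mem (L.mul_mem h2 h1) h2

lemma rel_conj {x y : α} {g : Perm α} (hg : g ∈ L) (h : swap x y ∈ L) : swap (g x) (g y) ∈ L := by
  rw [swap_apply_apply]
  exact L.mul_mem (L.mul_mem hg h) (L.inv_mem hg)

lemma gen_mem [Finite α] (p : α → Prop) (h : ∀ x y, p x → p y → swap x y ∈ L) (g : Perm α) (hg : ∀ x, g x ≠ x → p x) : g ∈ L := by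
  classical
  have h1 : ∀ x, p (g x) ↔ p x := by
    intro x
    by_cases hx : g x = x
    · rw [hx]
    · constructor
      · intro _; exact hg x hx
      · intro _; exact hg (g x) (fun h => hx (g.injective h))
  have h2 : ∀ f : Perm {x // p x}, Perm.ofSubtype f ∈ L := by
    intro f
    induction f using Perm.swap_induction_on with
    | one => rw [map_one]; exact L.one_mem
    | swap_mul f x y _ ih =>
      rw [map_mul, Perm.ofSubtype_swap_eq]
      exact L.mul_mem (h _ _ x.2 y.2) ih
  have h3 := h2 (g.subtypePerm h1)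
  rwa [Perm.ofSubtype_subtypePerm h1 hg] at h3

lemma eq_top_of [Finite α] (h : ∀ x y, swap x y ∈ L) : L = ⊤ := by
  rw [eq_top_iff]
  intro g _
  exact gen_mem L (fun _ => True) (fun x y _ _ => h x y) g (fun _ _ => trivial)

/-- preserving a predicate -/
def N (P : α → Prop) : Subgroup (Perm α) where
  carrier := {g | ∀ i, P (g i) ↔ P i}
  mul_mem' {a b} ha hb i := by rw [Perm.mul_apply, ha, hb]
  one_mem' i := by rw [Perm.one_apply]
  inv_mem' {a} ha i := by
    have := ha (a⁻¹ i)
    rw [app_inv] at this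
    exact this.symm

/-- preserving a partition -/
def K (P : α → Prop) : Subgroup (Perm α) where
  carrier := {g | (∀ i, P (g i) ↔ P i) ∨ (∀ i, P (g i) ↔ ¬ P i)}
  mul_mem' {a b} ha hb := by
    rcases ha with ha | ha <;> rcases hb with hb | hb
    · left; intro i; rw [Perm.mul_apply, ha, hb]
    · right; intro i; rw [Perm.mul_apply, ha, hb]
    · right; intro i; rw [Perm.mul_apply, ha, hb]
    · left; intro i; rw [Perm.mul_apply, ha, hb, not_not]
  one_mem' := by left; intro i; rw [Perm.one_apply]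
  inv_mem' {a} ha := by
    rcases ha with ha | ha
    · left; intro i
      have := ha (a⁻¹ i)
      rw [app_inv] at this
      exact this.symm
    · right; intro i
      have := ha (a⁻¹ i)
      rw [app_inv] at this
      rw [this, not_not]

lemma mem_N {P : α → Prop} {g : Perm α} : g ∈ N P ↔ ∀ i, P (g i) ↔ P i := Iff.rfl

lemma mem_K {P : α → Prop} {g : Perm α} : g ∈ K P ↔ (∀ i, P (g i) ↔ P i) ∨ (∀ i, P (g i) ↔ ¬ P i) := Iff.rfl

lemma swap_N {P : α → Prop} {x y : α} (h : P x ↔ P y) : swap x y ∈ N P := by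
  intro i
  by_cases h1 : i = x
  · rw [h1, swap_apply_left, h]
  by_cases h2 : i = y
  · rw [h2, swap_apply_right, h]
  rw [swap_apply_of_ne_of_ne h1 h2]

lemma N_le_K (P : α → Prop) : N P ≤ K P := fun _ hg => Or.inl hg

theorem coatom_K [Finite α] {P : α → Prop} {a0 a1 b0 : α} (h01 : a0 ≠ a1) (ha0 : P a0) (ha1 : P a1) (hb0 : ¬ P b0) : IsCoatom (K P) := by
  constructor
  · intro h
    have h1 : swap a0 b0 ∈ K P := by rw [h]; trivial
    rcases h1 with h2 | h2
    · have h3 := h2 a0
      rw [swap_apply_left] at h3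
      exact hb0 (h3.2 ha0)
    · have h3 := h2 a1
      have h4 : a1 ≠ b0 := fun h => hb0 (h ▸ ha1)
      rw [swap_apply_of_ne_of_ne h01.symm h4] at h3
      exact (h3.1 ha1) ha1
  · intro L hL
    obtain ⟨hle, g, hg, hgK⟩ := SetLike.lt_iff_le_and_exists.1 hL
    have hsw : ∀ x y, (P x ↔ P y) → swap x y ∈ L := fun x y h => hle (N_le_K P (swap_N h))
    have hcross : ∃ x y, P x ∧ ¬ P y ∧ swap x y ∈ L := by
      rw [mem_K, not_or, not_forall, not_forall] at hgK
      obtain ⟨⟨i, hi⟩, ⟨j, hj⟩⟩ := hgK
      have hsymm : ∀ x y, (¬ (P x ↔ P y)) → swap x y ∈ L → ∃ x y, P x ∧ ¬ P y ∧ swap x y ∈ L := by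
        intro x y hxy hs
        by_cases hx : P x
        · exact ⟨x, y, hx, fun hy => hxy ⟨fun _ => hy, fun _ => hx⟩, hs⟩
        · refine ⟨y, x, ?_, hx, by rw [swap_comm]; exact hs⟩
          by_contra hy
          exact hxy ⟨fun h => absurd h hx, fun h => absurd h hy⟩
      by_cases hij : P i ↔ P j
      · refine hsymm (g i) (g j) ?_ (rel_conj L hg (hsw i j hij))
        tauto
      · have h1 : P (g i) ↔ P (g j) := by tauto
        have h2 := rel_conj L (L.inv_mem hg) (hsw _ _ h1)
        rw [inv_app, inv_app] at h2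
        exact hsymm i j hij h2
    obtain ⟨x, y, hx, hy, hxy⟩ := hcross
    refine eq_top_of L fun u v => ?_
    have hux : ∀ u, swap u x ∈ L := by
      intro u
      by_cases hu : P u
      · exact hsw u x (by simp [hu, hx])
      · exact rel_trans L (hsw u y (by simp [hu, hy])) (by rw [swap_comm]; exact hxy)
    exact rel_trans L (hux u) (by rw [swap_comm]; exact hux v)

/-- point stabiliser -/
def M (o : α) : Subgroup (Perm α) := MulAction.stabilizer (Perm α) o

lemma mem_M {o : α} {g : Perm α} : g ∈ M o ↔ g o = o := Iff.rfl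

theorem coatom_M [Finite α] {o a0 a1 : α} (h0 : a0 ≠ o) (h1 : a1 ≠ o) (h01 : a0 ≠ a1) : IsCoatom (M o) := by
  constructor
  · intro h
    have h2 : swap a0 o ∈ M o := by rw [h]; trivial
    rw [mem_M, swap_apply_right] at h2
    exact h0 h2
  · intro L hL
    obtain ⟨hle, g, hg, hgM⟩ := SetLike.lt_iff_le_and_exists.1 hL
    rw [mem_M] at hgM
    have hsw : ∀ x y, x ≠ o → y ≠ o → swap x y ∈ L := fun x y hx hy => hle (by
      rw [mem_M, swap_apply_of_ne_of_ne hx.symm hy.symm])
    obtain ⟨u, hu⟩ : ∃ u, g u = o := ⟨g⁻¹ o, app_inv _ _⟩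
    have huo : u ≠ o := by rintro rfl; exact hgM hu
    obtain ⟨v, hvo, hvu⟩ : ∃ v, v ≠ o ∧ v ≠ u := by
      by_cases h : a0 = u
      · exact ⟨a1, h1, fun h' => h01 (h.trans h'.symm)⟩
      · exact ⟨a0, h0, h⟩
    have h2 := rel_conj L hg (hsw u v huo hvo)
    rw [hu] at h2
    have hgv : g v ≠ o := by
      intro h
      exact hvu (g.injective (h.trans hu.symm))
    have hox : ∀ x, swap o x ∈ L := by
      intro x
      by_cases hx : x = o
      · rw [hx, swap_self]; exact L.one_mem
      · exact rel_trans L h2 (hsw _ _ hgv hx)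
    exact eq_top_of L fun x y => rel_trans L (by rw [swap_comm]; exact hox x) (hox y)

theorem coatom_H [Fintype α] (P : α → Prop) [DecidablePred P] {o a0 b0 : α} (ho : ¬ P o) (ha0 : P a0) (hb0 : ¬ P b0) (hb0o : b0 ≠ o)
    (hcard : (Finset.univ.filter (fun i => ¬ P i ∧ i ≠ o)).card < (Finset.univ.filter P).card) : IsCoatom ((M o ⊓ N P).subgroupOf (M o)) := by
  have ha0o : a0 ≠ o := fun h => ho (h ▸ ha0)
  constructor
  · intro h
    have h1 : (⟨swap a0 b0, by rw [mem_M, swap_apply_of_ne_of_ne ha0o.symm hb0o.symm]⟩ : M o) ∈ (M o ⊓ N P).subgroupOf (M o) := by rw [h]; trivial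
    have h2 : swap a0 b0 ∈ N P := h1.2
    have h3 := h2 a0
    rw [swap_apply_left] at h3
    exact hb0 (h3.2 ha0)
  · intro L' hL'
    obtain ⟨hle, g', hg', hgH⟩ := SetLike.lt_iff_le_and_exists.1 hL'
    obtain ⟨L, hLd⟩ : ∃ L, L = L'.map (M o).subtype := ⟨_, rfl⟩
    have hmem : ∀ g : Perm α, g ∈ M o ⊓ N P → g ∈ L := by
      intro g hg
      rw [hLd]
      exact ⟨⟨g, hg.1⟩, hle (show (⟨g, hg.1⟩ : M o) ∈ (M o ⊓ N P).subgroupOf (M o) from hg), rfl⟩
    obtain ⟨g, hgd⟩ : ∃ g : Perm α, g = g' := ⟨_, rfl⟩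
    have hg : g ∈ L := by rw [hLd, hgd]; exact ⟨g', hg', rfl⟩
    have hgo : g o = o := by rw [hgd]; exact g'.2
    have hgN : g ∉ N P := by
      intro h
      apply hgH
      exact ⟨g'.2, by rw [hgd] at h; exact h⟩
    have hsw : ∀ x y, x ≠ o → y ≠ o → (P x ↔ P y) → swap x y ∈ L := fun x y hx hy h => hmem _ ⟨by
      show swap x y ∈ M o
      rw [mem_M, swap_apply_of_ne_of_ne hx.symm hy.symm], swap_N h⟩
    have hPo : ∀ x, P x → x ≠ o := fun x hx h => ho (h ▸ hx)
    have hgne : ∀ x, x ≠ o → g x ≠ o := fun x hx h => hx (g.injective (h.trans hgo.symm))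
    have hcross : ∃ x y, P x ∧ ¬ P y ∧ y ≠ o ∧ swap x y ∈ L := by
      by_contra hcon
      push Not at hcon
      -- elements of `P` are sent to the same side
      have h1 : ∀ i j, P i → P j → P (g i) → P (g j) := by
        intro i j hi hj hgi
        by_contra hgj
        exact hcon (g i) (g j) hgi hgj (hgne j (hPo j hj)) (rel_conj L hg (hsw i j (hPo i hi) (hPo j hj) (by simp [hi, hj])))
      by_cases h2 : P (g a0)
      · -- g preserves P
        apply hgN
        have h3 : ∀ i, P i → P (g i) := fun i hi => h1 a0 i ha0 hi h2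
        have h4 : (Finset.univ.filter P).image g = Finset.univ.filter P := by
          apply Finset.eq_of_subset_of_card_le
          · intro y hy
            rw [Finset.mem_image] at hy
            obtain ⟨x, hx, rfl⟩ := hy
            rw [Finset.mem_filter] at hx ⊢
            exact ⟨Finset.mem_univ _, h3 x hx.2⟩
          · rw [Finset.card_image_of_injective _ g.injective]
        intro i
        constructor
        · intro hi
          have h5 : g i ∈ (Finset.univ.filter P).image g := by
            rw [h4, Finset.mem_filter]; exact ⟨Finset.mem_univ _, hi⟩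
          rw [Finset.mem_image] at h5
          obtain ⟨x, hx, hxi⟩ := h5
          rw [← g.injective hxi]
          exact (Finset.mem_filter.1 hx).2
        · exact h3 i
      · have h3 : ∀ i, P i → ¬ P (g i) := fun i hi hgi => h2 (h1 i a0 hi ha0 hgi)
        have h4 : (Finset.univ.filter P).image g ⊆ Finset.univ.filter (fun i => ¬ P i ∧ i ≠ o) := by
          intro y hy
          rw [Finset.mem_image] at hy
          obtain ⟨x, hx, rfl⟩ := hy
          rw [Finset.mem_filter] at hx ⊢
          exact ⟨Finset.mem_univ _, h3 x hx.2, hgne x (hPo x hx.2)⟩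
        have h5 := Finset.card_le_card h4
        rw [Finset.card_image_of_injective _ g.injective] at h5
        omega
    obtain ⟨x, y, hx, hy, hyo, hxy⟩ := hcross
    have hall : ∀ u v, u ≠ o → v ≠ o → swap u v ∈ L := by
      have hux : ∀ u, u ≠ o → swap u x ∈ L := by
        intro u huo
        by_cases hu : P u
        · exact hsw u x huo (hPo x hx) (by simp [hu, hx])
        · exact rel_trans L (hsw u y huo hyo (by simp [hu, hy])) (by rw [swap_comm]; exact hxy)
      intro u v hu hv
      exact rel_trans L (hux u hu) (by rw [swap_comm]; exact hux v hv)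
    rw [eq_top_iff]
    intro k _
    have h1 : (k : Perm α) ∈ L := gen_mem L (fun x => x ≠ o) hall (k : Perm α) (fun x hx h => hx (by rw [h]; exact k.2))
    rw [hLd] at h1
    obtain ⟨k', hk', hkk⟩ := h1
    have : k' = k := Subtype.ext hkk
    rw [← this]; exact hk'

end gen

end CfsgLib.Wr29
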