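import Cfsg.Agent.LibFus21Simple2

set_option autoImplicit false

/-! Sylow 2-subgroups of semidihedral or wreathed type: the abstract setting (helper1) -/

namespace CfsgLib.Wre

open Cfsg CfsgLib.Fus21

variable {G : Type*} [Group G]

/-- torus with an involution -/
structure SD (A : Subgroup G) (J s : G) : Prop where
  hA : ∀ x, x ∈ A ↔ x * J = J * x
  comm : ∀ x ∈ A, ∀ y ∈ A, x * y = y * x
  s2 : s * s = 1
  sJ : s * J * s = J⁻¹
  J2 : J * J ≠ 1
  J4 : (J * J) * (J * J) = 1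
  Jc : ∀ x, x * (J * J) = (J * J) * x
  nrm : ∀ a ∈ A, ∀ x, x * (a * (s * a * s)) = (a * (s * a * s)) * x
  fix : ∀ a ∈ A, s * a * s = a → ∀ x, x * a = a * x
  sq : ∀ x ∈ A, (∃ y, x * y ≠ y * x) → x * x = J * J → x = J ∨ x = J⁻¹
  com : ∃ c ∈ A, c * (s * c⁻¹ * s) = J
  cen : ∀ x, (∀ y, y * x = x * y) → x * x = 1 → x = 1 ∨ x = J * J

variable {A : Subgroup G} {J s : G}

theorem SD.sinv (h : SD A J s) : s⁻¹ = s := inv_eq_of_mul_eq_one_right h.s2

theorem SD.JA (h : SD A J s) : J ∈ A := (h.hA J).2 rfl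

theorem SD.sA (h : SD A J s) {a : G} (ha : a ∈ A) : s * a * s ∈ A := by
  rw [h.hA] at ha ⊢
  have h1 : s * J⁻¹ * s = J := by
    have := congrArg (·⁻¹) h.sJ
    simp only [mul_inv_rev, inv_inv, h.sinv] at this
    rw [mul_assoc]; exact this
  have h2 : a * J⁻¹ = J⁻¹ * a := by
    rw [mul_inv_eq_iff_eq_mul, mul_assoc, ha, inv_mul_cancel_left]
  calc s * a * s * J = s * a * (s * J * s) * s := by
        rw [show s * a * (s * J * s) * s = s * a * s * J * (s * s) by group, h.s2, mul_one]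
    _ = s * (a * J⁻¹) * s := by rw [h.sJ]; group
    _ = s * J⁻¹ * a * s := by rw [h2]; group
    _ = (s * J⁻¹ * s) * (s * a * s) := by
        rw [show (s * J⁻¹ * s) * (s * a * s) = s * J⁻¹ * (s * s) * a * s by group, h.s2, mul_one]
    _ = J * (s * a * s) := by rw [h1]

theorem SD.sss (h : SD A J s) (a : G) : s * (s * a * s) * s = a := by
  rw [show s * (s * a * s) * s = (s * s) * a * (s * s) by group, h.s2, one_mul, mul_one]

theorem SD.smul (h : SD A J s) (a b : G) : s * (a * b) * s = (s * a * s) * (s * b * s) := by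
  rw [show (s * a * s) * (s * b * s) = s * a * (s * s) * b * s by group, h.s2]; group

theorem SD.spow (h : SD A J s) (a : G) (n : ℕ) : s * a ^ n * s = (s * a * s) ^ n := by
  induction n with
  | zero => simp [h.s2]
  | succ n ih => rw [pow_succ, h.smul, ih, pow_succ]

theorem SD.sinv' (h : SD A J s) (a : G) : s * a⁻¹ * s = (s * a * s)⁻¹ := by
  rw [mul_inv_rev, mul_inv_rev, h.sinv]; group

/-- the 2-elements of the torus -/
def SD.C (h : SD A J s) : Subgroup G where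
  carrier := {a | a ∈ A ∧ ∃ k : ℕ, a ^ 2 ^ k = 1}
  one_mem' := ⟨A.one_mem, 0, by simp⟩
  mul_mem' := by
    rintro a b ⟨ha, k, hk⟩ ⟨hb, l, hl⟩
    refine ⟨A.mul_mem ha hb, k + l, ?_⟩
    rw [(show Commute a b from h.comm a ha b hb).mul_pow, pow_add, pow_mul, hk, one_pow, one_mul, mul_comm (2 ^ k), pow_mul, hl, one_pow]
  inv_mem' := by
    rintro a ⟨ha, k, hk⟩
    exact ⟨A.inv_mem ha, k, by rw [inv_pow, hk, inv_one]⟩

theorem SD.mem_C (h : SD A J s) {a : G} : a ∈ h.C ↔ a ∈ A ∧ ∃ k : ℕ, a ^ 2 ^ k = 1 := Iff.rfl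

theorem SD.sC (h : SD A J s) {a : G} (ha : a ∈ h.C) : s * a * s ∈ h.C := by
  obtain ⟨h1, k, hk⟩ := ha
  exact ⟨h.sA h1, k, by rw [← h.spow, hk]; simp [h.s2]⟩

theorem SD.JC (h : SD A J s) : J ∈ h.C := ⟨h.JA, 2, by
  rw [show (2 : ℕ) ^ 2 = 2 * 2 by norm_num, pow_mul, pow_two, pow_two]; exact h.J4⟩

/-- the 2-group `C⟨s⟩` -/
def SD.P (h : SD A J s) : Subgroup G where
  carrier := {x | x ∈ h.C ∨ x * s ∈ h.C}
  one_mem' := Or.inl (h.C).one_mem
  mul_mem' := by
    rintro a b (ha | ha) (hb | hb)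
    · exact Or.inl (h.C.mul_mem ha hb)
    · right; rw [mul_assoc]; exact h.C.mul_mem ha hb
    · right
      have := h.C.mul_mem ha (h.sC hb)
      have h2 : a * s * (s * b * s) = a * b * s := by
        rw [show a * s * (s * b * s) = a * (s * s) * b * s by group, h.s2]; group
      rwa [h2] at this
    · left
      have := h.C.mul_mem ha (h.sC hb)
      have h2 : a * s * (s * (b * s) * s) = a * b := by
        rw [show a * s * (s * (b * s) * s) = a * (s * s) * b * (s * s) by group, h.s2]; group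
      rwa [h2] at this
  inv_mem' := by
    rintro a (ha | ha)
    · exact Or.inl (h.C.inv_mem ha)
    · right
      have := h.sC (h.C.inv_mem ha)
      have h2 : s * (a * s)⁻¹ * s = a⁻¹ * s := by
        rw [mul_inv_rev, h.sinv, show s * (s * a⁻¹) * s = (s * s) * a⁻¹ * s by group, h.s2, one_mul]
      rwa [h2] at this

theorem SD.mem_P (h : SD A J s) {x : G} : x ∈ h.P ↔ x ∈ h.C ∨ x * s ∈ h.C := Iff.rfl

theorem SD.CP (h : SD A J s) : h.C ≤ h.P := fun _ hx => Or.inl hx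

theorem SD.sP (h : SD A J s) : s ∈ h.P := Or.inr (by rw [h.s2]; exact h.C.one_mem)

theorem SD.csP (h : SD A J s) {c : G} (hc : c ∈ h.C) : c * s ∈ h.P := h.P.mul_mem (h.CP hc) h.sP

theorem SD.s_not_A (h : SD A J s) : s ∉ A := by
  intro hs
  rw [h.hA] at hs
  have h1 := h.sJ
  rw [hs, mul_assoc, h.s2, mul_one] at h1
  exact h.J2 (mul_eq_one_iff_eq_inv.2 h1)

theorem SD.P_A (h : SD A J s) {x : G} (hx : x ∈ h.P) (hxA : x ∈ A) : x ∈ h.C := by
  rcases hx with hx | hx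
  · exact hx
  · exact absurd ((Subgroup.mul_mem_cancel_left A hxA).1 hx.1) h.s_not_A

theorem SD.isP (h : SD A J s) : IsPGroup 2 h.P := by
  rintro ⟨x, hx⟩
  rcases id hx with hx1 | hx1
  · obtain ⟨-, k, hk⟩ := hx1
    exact ⟨k, Subtype.ext hk⟩
  · -- `x ^ 2 ∈ C`
    have h1 : x * x ∈ h.C := by
      have := h.C.mul_mem hx1 (h.sC hx1)
      have h2 : x * s * (s * (x * s) * s) = x * x := by
        rw [show x * s * (s * (x * s) * s) = x * (s * s) * x * (s * s) by group, h.s2]; group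
      rwa [h2] at this
    obtain ⟨-, k, hk⟩ := h1
    refine ⟨k + 1, Subtype.ext ?_⟩
    show x ^ 2 ^ (k + 1) = 1
    rw [pow_succ, mul_comm, pow_mul, pow_two]; exact hk

/-- commutators of elements of `P` -/
theorem SD.comm_mem (h : SD A J s) {x y : G} (hx : x ∈ h.P) (hy : y ∈ h.P) : x * y * x⁻¹ * y⁻¹ ∈ h.C := by
  -- `P` is generated modulo `C` by `s`
  have key : ∀ x ∈ h.P, ∀ y ∈ h.P, x * y ∈ h.C ∨ (x * y) * s ∈ h.C := fun x hx y hy => h.P.mul_mem hx hy
  have hconj : ∀ x ∈ h.P, ∀ c ∈ h.C, x * c * x⁻¹ ∈ h.C := by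
    intro x hx c hc
    refine h.P_A (h.P.mul_mem (h.P.mul_mem hx (h.CP hc)) (h.P.inv_mem hx)) ?_
    rcases hx with hx | hx
    · exact A.mul_mem (A.mul_mem hx.1 hc.1) (A.inv_mem hx.1)
    · have h1 : x * c * x⁻¹ = (x * s) * (s * c * s) * (x * s)⁻¹ := by
        rw [mul_inv_rev, h.sinv, show x * s * (s * c * s) * (s * x⁻¹) = x * (s * s) * c * (s * s) * x⁻¹ by group, h.s2]; group
      rw [h1]
      exact A.mul_mem (A.mul_mem hx.1 (h.sA hc.1)) (A.inv_mem hx.1)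
  rcases id hx with hx1 | hx1
  · have h1 : x * y * x⁻¹ * y⁻¹ = x * (y * x⁻¹ * y⁻¹) := by group
    rw [h1]
    exact h.C.mul_mem hx1 (hconj y hy _ (h.C.inv_mem hx1))
  · rcases id hy with hy1 | hy1
    · exact h.C.mul_mem (hconj x hx y hy1) (h.C.inv_mem hy1)
    · -- `x y⁻¹ ∈ C`
      have h1 : x * y⁻¹ ∈ h.C := by
        have h2 : x * y⁻¹ = (x * s) * (y * s)⁻¹ := by rw [mul_inv_rev, h.sinv, show x * s * (s * y⁻¹) = x * (s * s) * y⁻¹ by group, h.s2, mul_one]
        rw [h2]; exact h.C.mul_mem hx1 (h.C.inv_mem hy1)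
      have h5 : x * y * x⁻¹ * y⁻¹ = (x * y⁻¹) * (y * (x * y⁻¹)⁻¹ * y⁻¹) := by
        group
      rw [h5]
      exact h.C.mul_mem h1 (hconj y hy _ (h.C.inv_mem h1))

/-- `J` or its inverse is a commutator -/
theorem SD.J_comm [Finite G] (h : SD A J s) : ∃ c ∈ h.C, c * (s * c⁻¹ * s) = J ∨ c * (s * c⁻¹ * s) = J⁻¹ := by
  obtain ⟨c, hc, hcJ⟩ := h.com
  obtain ⟨k, m, hm, hkm⟩ := Nat.exists_eq_two_pow_mul_odd (orderOf_pos c).ne'
  have hpow : ∀ n : ℕ, c ^ n * (s * (c ^ n)⁻¹ * s) = J ^ n := by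
    intro n
    rw [← hcJ, ← inv_pow, h.spow, (show Commute c (s * c⁻¹ * s) from h.comm c hc _ (h.sA (A.inv_mem hc))).mul_pow]
  refine ⟨c ^ m, ⟨A.pow_mem hc m, k, ?_⟩, ?_⟩
  · rw [← pow_mul, mul_comm, ← hkm, pow_orderOf_eq_one]
  · rw [hpow]
    have hJ4 : J ^ 4 = 1 := by rw [show 4 = 2 * 2 by norm_num, pow_mul, pow_two, pow_two]; exact h.J4
    obtain ⟨r, hr⟩ := hm
    rcases Nat.even_or_odd' r with ⟨t, rfl | rfl⟩
    · left
      rw [hr, show 2 * (2 * t) + 1 = 4 * t + 1 by ring, pow_add, pow_mul, hJ4, one_pow, one_mul, pow_one]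
    · right
      rw [hr, show 2 * (2 * t + 1) + 1 = 4 * t + 3 by ring, pow_add, pow_mul, hJ4, one_pow, one_mul]
      rw [eq_inv_iff_mul_eq_one, ← pow_succ]; exact hJ4

theorem SD.norm_J [Finite G] (h : SD A J s) {g : G} (hg : g ∈ Subgroup.normalizer (h.P : Set G)) : g * J * g⁻¹ = J ∨ g * J * g⁻¹ = J⁻¹ := by
  rw [Subgroup.mem_normalizer_iff] at hg
  have h1 : g * J * g⁻¹ ∈ h.C := by
    obtain ⟨c, hc, hcJ⟩ := h.J_comm
    have h2 := h.comm_mem ((hg c).1 (h.CP hc)) ((hg s).1 h.sP)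
    have h3 : g * c * g⁻¹ * (g * s * g⁻¹) * (g * c * g⁻¹)⁻¹ * (g * s * g⁻¹)⁻¹ = g * (c * (s * c⁻¹ * s⁻¹)) * g⁻¹ := by
      group
    rw [h3, h.sinv] at h2
    rcases hcJ with hcJ | hcJ
    · rwa [hcJ] at h2
    · rw [hcJ] at h2
      have := h.C.inv_mem h2
      have h4 : (g * J⁻¹ * g⁻¹)⁻¹ = g * J * g⁻¹ := by group
      rwa [h4] at this
  refine h.sq _ h1.1 ?_ ?_
  · by_contra hcon
    push Not at hcon
    have h2 : ∀ y, J * y = y * J := by
      intro y
      have h3 := hcon (g * y * g⁻¹)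
      have h4 : g * J * g⁻¹ * (g * y * g⁻¹) = g * (J * y) * g⁻¹ := by group
      have h5 : g * y * g⁻¹ * (g * J * g⁻¹) = g * (y * J) * g⁻¹ := by group
      rw [h4, h5] at h3
      exact mul_left_cancel (mul_right_cancel h3)
    have h3 := h.sJ
    rw [← h2 s, mul_assoc, h.s2, mul_one] at h3
    exact h.J2 (mul_eq_one_iff_eq_inv.2 h3)
  · have h2 : g * J * g⁻¹ * (g * J * g⁻¹) = g * (J * J) * g⁻¹ := by group
    rw [h2, h.Jc g]; group

theorem SD.norm_cases [Finite G] (h : SD A J s) {g : G} (hg : g ∈ Subgroup.normalizer (h.P : Set G)) : g ∈ A ∨ g * s ∈ A := by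
  rcases h.norm_J hg with h1 | h1
  · left; rw [h.hA]; exact mul_inv_eq_iff_eq_mul.1 h1
  · right
    rw [h.hA]
    have h2 : s * J = J⁻¹ * s := by
      have := h.sJ
      rw [← this, mul_assoc, h.s2, mul_one]
    have h3 : g * J⁻¹ = J * g := by
      have h4 : g * J⁻¹ * g⁻¹ = J := by
        have := congrArg (·⁻¹) h1
        simp only [mul_inv_rev, inv_inv] at this
        rw [mul_assoc]; exact this
      exact mul_inv_eq_iff_eq_mul.1 h4
    rw [mul_assoc, h2, ← mul_assoc, h3, mul_assoc]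

/-- in the torus -/
theorem SD.norm_A (h : SD A J s) {g : G} (hg : g ∈ Subgroup.normalizer (h.P : Set G)) (hgA : g ∈ A) :
    g * (s * g⁻¹ * s) ∈ h.C := by
  refine h.P_A ?_ (A.mul_mem hgA (h.sA (A.inv_mem hgA)))
  have h1 := (Subgroup.mem_normalizer_iff.1 hg s).1 h.sP
  have := h.P.mul_mem h1 h.sP
  have h2 : g * (s * g⁻¹ * s) = g * s * g⁻¹ * s := by group
  rw [h2]; exact this

/-- every element of the normalizer has a central `2`-power -/
theorem SD.norm_pow [Finite G] (h : SD A J s) {g : G} (hg : g ∈ Subgroup.normalizer (h.P : Set G)) :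
    ∃ k : ℕ, ∀ x, x * g ^ 2 ^ k = g ^ 2 ^ k * x := by
  have key : ∀ e : G, e ∈ Subgroup.normalizer (h.P : Set G) → e ∈ A → ∃ k : ℕ, ∀ x, x * e ^ 2 ^ k = e ^ 2 ^ k * x := by
    intro e he heA
    obtain ⟨-, k, hk⟩ := h.norm_A he heA
    refine ⟨k, h.fix _ (A.pow_mem heA _) ?_⟩
    rw [(show Commute e (s * e⁻¹ * s) from h.comm e heA _ (h.sA (A.inv_mem heA))).mul_pow, ← h.spow, inv_pow, h.sinv',
      mul_inv_eq_one] at hk
    exact hk.symm
  rcases h.norm_cases hg with h1 | h1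
  · exact key g hg h1
  · refine ⟨1, fun x => ?_⟩
    have h2 : g ^ 2 ^ 1 = (g * s) * (s * (g * s) * s) := by
      rw [show (g * s) * (s * (g * s) * s) = g * (s * s) * g * (s * s) by group, h.s2, pow_one, pow_two]; group
    rw [h2]
    exact h.nrm _ h1 x

/-- `P` is a Sylow subgroup of its normalizer -/
theorem SD.norm_two [Finite G] (h : SD A J s) {g : G} (hg : g ∈ Subgroup.normalizer (h.P : Set G)) {r : ℕ} (hr : g ^ 2 ^ r = 1) : g ∈ h.P := by
  rcases h.norm_cases hg with h1 | h1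
  · exact h.CP ⟨h1, r, hr⟩
  · have he : g * s ∈ Subgroup.normalizer (h.P : Set G) := Subgroup.mul_mem _ hg (Subgroup.le_normalizer h.sP)
    have hu := h.norm_A he h1
    have hn : (g * s) * (s * (g * s) * s) = g * g := by
      rw [show (g * s) * (s * (g * s) * s) = g * (s * s) * g * (s * s) by group, h.s2]; group
    have hnA : g * g ∈ A := by rw [← hn]; exact A.mul_mem h1 (h.sA h1)
    have hnC : g * g ∈ h.C := ⟨hnA, r, by
      rw [← pow_two, ← pow_mul, mul_comm, pow_mul, hr, one_pow]⟩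
    have h3 : (g * s) * (g * s) ∈ h.C := by
      have h4 := h.C.mul_mem hu hnC
      have h5 : (g * s) * (s * (g * s)⁻¹ * s) * (g * g) = (g * s) * (g * s) := by
        rw [← hn]
        have h6 := h.comm _ (h.sA (A.inv_mem h1)) _ (A.mul_mem h1 (h.sA h1))
        rw [mul_assoc, h6, h.sinv']
        group
      rwa [h5] at h4
    right
    obtain ⟨-, k, hk⟩ := h3
    exact ⟨h1, k + 1, by rw [pow_succ, mul_comm, pow_mul, pow_two]; exact hk⟩

end CfsgLib.Wre
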