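import Cfsg.Agent.LibWre1

set_option autoImplicit false

/-! Sylow 2-subgroups of semidihedral or wreathed type: embedding and simplicity (helper1) -/

namespace CfsgLib.Wre

open Cfsg CfsgLib.Fus21

variable {G : Type*} [Group G] {A : Subgroup G} {J s : G}

theorem odd_part {G : Type*} [Group G] [Finite G] (g : G) : ∃ m : ℕ, ¬ 2 ∣ m ∧ ∃ k : ℕ, (g ^ m) ^ 2 ^ k = 1 := by
  obtain ⟨k, m, hm, hkm⟩ := Nat.exists_eq_two_pow_mul_odd (orderOf_pos g).ne'
  refine ⟨m, ?_, k, by rw [← pow_mul, mul_comm, ← hkm, pow_orderOf_eq_one]⟩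
  rw [Nat.two_dvd_ne_zero]
  exact Nat.odd_iff.1 hm

variable {H : Type*} [Group H] [Finite H]

theorem SD.norm_range [Finite G] (h : SD A J s) (ι : G →* H) (hι : Function.Injective ι)
    (hz : ∀ x : H, x * ι (J * J) = ι (J * J) * x → ∃ y, ι y = x) {g : H}
    (hg : g ∈ Subgroup.normalizer ((h.P.map ι : Subgroup H) : Set H)) : ∃ y ∈ Subgroup.normalizer (h.P : Set G), ι y = g := by
  rw [Subgroup.mem_normalizer_iff] at hg
  have hzP : J * J ∈ h.P := h.P.mul_mem (h.CP h.JC) (h.CP h.JC)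
  obtain ⟨y, hy, hyz⟩ := (hg _).1 ⟨J * J, hzP, rfl⟩
  have hyc : ∀ x ∈ h.P, x * y = y * x := by
    intro x hx
    apply hι
    rw [map_mul, map_mul, hyz]
    have h1 : g⁻¹ * ι x * g ∈ h.P.map ι := by
      rw [hg]
      have : g * (g⁻¹ * ι x * g) * g⁻¹ = ι x := by group
      rw [this]; exact ⟨x, hx, rfl⟩
    obtain ⟨w, hw, hwx⟩ := h1
    have h2 : ι w * ι (J * J) = ι (J * J) * ι w := by rw [← map_mul, ← map_mul, h.Jc]
    have h3 : ι x = g * ι w * g⁻¹ := by rw [hwx]; group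
    rw [h3]
    calc g * ι w * g⁻¹ * (g * ι (J * J) * g⁻¹) = g * (ι w * ι (J * J)) * g⁻¹ := by group
      _ = g * (ι (J * J) * ι w) * g⁻¹ := by rw [h2]
      _ = _ := by group
  have hyA : y ∈ A := (h.hA y).2 (hyc J (h.CP h.JC)).symm
  have hyf : s * y * s = y := by rw [hyc s h.sP, mul_assoc, h.s2, mul_one]
  have hy2 : y * y = 1 := by
    apply hι
    rw [map_mul, hyz, map_one]
    have : g * ι (J * J) * g⁻¹ * (g * ι (J * J) * g⁻¹) = g * (ι (J * J) * ι (J * J)) * g⁻¹ := by group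
    rw [this, ← map_mul, h.J4, map_one]; group
  have hyJ : y = J * J := by
    rcases h.cen y (h.fix y hyA hyf) hy2 with h1 | h1
    · exfalso
      rw [h1, map_one] at hyz
      have h2 : ι (J * J) = 1 := by
        have : ι (J * J) = g⁻¹ * (g * ι (J * J) * g⁻¹) * g := by group
        rw [this, ← hyz]; group
      exact h.J2 (hι (by rw [h2, map_one]))
    · exact h1
  rw [hyJ] at hyz
  obtain ⟨w, hw⟩ := hz g (mul_inv_eq_iff_eq_mul.1 hyz.symm)
  refine ⟨w, ?_, hw⟩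
  rw [Subgroup.mem_normalizer_iff]
  intro x
  have h1 := hg (ι x)
  rw [← hw, ← map_inv, ← map_mul, ← map_mul] at h1
  have hm : ∀ v, ι v ∈ h.P.map ι ↔ v ∈ h.P := fun v => ⟨fun ⟨u, hu, huv⟩ => hι huv ▸ hu, fun hv => ⟨v, hv, rfl⟩⟩
  rw [hm, hm] at h1
  exact h1

theorem SD.simpleData [Finite G] (h : SD A J s) (ι : G →* H) (hι : Function.Injective ι)
    (hz : ∀ x : H, x * ι (J * J) = ι (J * J) * x → ∃ y, ι y = x)
    (hinv : ∀ x : H, x * x = 1 → x ≠ 1 → ∃ g, g * x * g⁻¹ = ι (J * J))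
    (hX : ∀ c ∈ h.C, ∃ d ∈ h.C, d * (s * d * s) = c * (s * c * s) ∧ ∃ c' ∈ h.C, c' * (s * c' * s) = 1 ∧
      ∃ g : H, g * ι c' * g⁻¹ = ι d ∨ g * ι c' * g⁻¹ = ι (d * s)) : SimpleData 2 (h.P.map ι) := by
  haveI : Fact (Nat.Prime 2) := ⟨Nat.prime_two⟩
  have hP := h.isP
  have hU : IsPGroup 2 (h.P.map ι) := hP.map ι
  refine ⟨hU, ?_, ?_, ?_, ?_⟩
  · intro h0
    have h1 : ι (J * J) ∈ h.P.map ι := ⟨J * J, h.P.mul_mem (h.CP h.JC) (h.CP h.JC), rfl⟩
    rw [h0, Subgroup.mem_bot] at h1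
    exact h.J2 (hι (by rw [h1, map_one]))
  · intro g hg
    obtain ⟨y, hy, rfl⟩ := h.norm_range ι hι hz hg
    obtain ⟨m, hm, k, hk⟩ := odd_part y
    refine ⟨m, hm, ?_⟩
    rw [← map_pow]
    exact ⟨y ^ m, h.norm_two (Subgroup.pow_mem _ hy m) hk, rfl⟩
  · intro T hTU hT1 hT
    -- an involution
    obtain ⟨t, htT, ht1, ht2⟩ : ∃ t ∈ T, t ≠ 1 ∧ t * t = 1 := by
      obtain ⟨⟨x, hx⟩, hx0⟩ := Subgroup.ne_bot_iff_exists_ne_one.1 hT1
      have hx1 : x ≠ 1 := fun h => hx0 (Subtype.ext h)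
      obtain ⟨k, hk⟩ := hU ⟨x, hTU hx⟩
      have hk' : x ^ 2 ^ k = 1 := congrArg Subtype.val hk
      have hex : ∃ k, x ^ 2 ^ k = 1 := ⟨k, hk'⟩
      classical
      have hmin := Nat.find_spec hex
      have hpos : Nat.find hex ≠ 0 := by
        intro h0
        rw [h0, pow_zero, pow_one] at hmin
        exact hx1 hmin
      obtain ⟨r, hr⟩ := Nat.exists_eq_succ_of_ne_zero hpos
      refine ⟨x ^ 2 ^ r, T.pow_mem hx _, fun h1 => ?_, ?_⟩
      · exact Nat.find_min hex (by rw [hr]; exact Nat.lt_succ_self r) h1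
      · rw [← pow_two, ← pow_mul, ← pow_succ]
        rw [hr] at hmin; exact hmin
    have hTinv : ∀ x ∈ h.P.map ι, x * x = 1 → x ∈ T := by
      intro x hx hx2
      by_cases hx1 : x = 1
      · rw [hx1]; exact T.one_mem
      obtain ⟨g₁, hg₁⟩ := hinv t ht2 ht1
      obtain ⟨g₂, hg₂⟩ := hinv x hx2 hx1
      have h1 : (g₂⁻¹ * g₁) * t * (g₂⁻¹ * g₁)⁻¹ = x := by
        have : (g₂⁻¹ * g₁) * t * (g₂⁻¹ * g₁)⁻¹ = g₂⁻¹ * (g₁ * t * g₁⁻¹) * g₂ := by group
        rw [this, hg₁, ← hg₂]; group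
      have h2 := hT (g₂⁻¹ * g₁) t htT (by rw [h1]; exact hx)
      rwa [h1] at h2
    have hsT : ι s ∈ T := hTinv _ ⟨s, h.sP, rfl⟩ (by rw [← map_mul, h.s2, map_one])
    have hC1 : ∀ c ∈ h.C, c * (s * c * s) = 1 → ι c ∈ T := by
      intro c hc hc1
      have h1 := hTinv (ι (c * s)) ⟨_, h.csP hc, rfl⟩ (by
        rw [← map_mul]
        have : c * s * (c * s) = c * (s * c * s) := by group
        rw [this, hc1, map_one])
      have h2 := T.mul_mem h1 hsT
      rw [← map_mul, mul_assoc, h.s2, mul_one] at h2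
      exact h2
    have hCT : ∀ c ∈ h.C, ι c ∈ T := by
      intro c hc
      obtain ⟨d, hd, hdc, c', hc', hc1, g, hg⟩ := hX c hc
      have h1 : ι d ∈ T := by
        rcases hg with hg | hg
        · have := hT g _ (hC1 c' hc' hc1) (by rw [hg]; exact ⟨d, h.CP hd, rfl⟩)
          rwa [hg] at this
        · have := hT g _ (hC1 c' hc' hc1) (by rw [hg]; exact ⟨_, h.csP hd, rfl⟩)
          rw [hg] at this
          have h2 := T.mul_mem this hsT
          rw [← map_mul, mul_assoc, h.s2, mul_one] at h2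
          exact h2
      have h2 := hC1 (d⁻¹ * c) (h.C.mul_mem (h.C.inv_mem hd) hc) (by
        rw [h.smul, h.sinv']
        have h3 := h.comm _ hc.1 _ (h.sA (A.inv_mem hd.1))
        rw [h.sinv'] at h3
        have h4 : d⁻¹ * c * ((s * d * s)⁻¹ * (s * c * s)) = d⁻¹ * (c * (s * d * s)⁻¹) * (s * c * s) := by group
        have h6 := h.comm _ (A.inv_mem hd.1) _ (A.inv_mem (h.sA hd.1))
        rw [h4, h3]
        have h5 : d⁻¹ * ((s * d * s)⁻¹ * c) * (s * c * s) = (d⁻¹ * (s * d * s)⁻¹) * (c * (s * c * s)) := by group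
        rw [h5, ← hdc, h6]; group)
      rw [map_mul, map_inv] at h2
      have h3 := T.mul_mem h1 h2
      rwa [mul_inv_cancel_left] at h3
    rintro _ ⟨x, hx, rfl⟩
    rcases hx with hx | hx
    · exact hCT x hx
    · have h1 := T.mul_mem (hCT _ hx) hsT
      rwa [← map_mul, mul_assoc, h.s2, mul_one] at h1
  · intro g hg
    have hgN := hg
    obtain ⟨y, hy, rfl⟩ := h.norm_range ι hι hz hg
    obtain ⟨k, hk⟩ := h.norm_pow hy
    obtain ⟨m, hm, r, hr⟩ := odd_part y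
    have hcop : IsCoprime ((2 : ℤ) ^ k) (m : ℤ) := by
      have h1 : Nat.Coprime (2 ^ k) m := (Nat.Coprime.pow_left k ((Nat.Prime.coprime_iff_not_dvd Nat.prime_two).2 hm))
      have := Nat.isCoprime_iff_coprime.2 h1
      simpa using this
    obtain ⟨u, v, huv⟩ := hcop
    have h1 : ι y = (ι y ^ 2 ^ k) ^ u * (ι y ^ m) ^ v := by
      rw [← zpow_natCast (ι y) (2 ^ k), ← zpow_natCast (ι y) m, ← zpow_mul, ← zpow_mul, ← zpow_add]
      have : ((2 ^ k : ℕ) : ℤ) * u + (m : ℤ) * v = 1 := by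
        push_cast
        linear_combination huv
      rw [this, zpow_one]
    rw [h1]
    refine Subgroup.mul_mem _ (Subgroup.zpow_mem _ (Subgroup.subset_closure ?_) u) (Subgroup.zpow_mem _ (Subgroup.subset_closure ?_) v)
    · refine ⟨Subgroup.pow_mem _ hgN _, Or.inl ?_⟩
      rintro _ ⟨x, hx, rfl⟩
      rw [← map_pow, ← map_mul, ← map_mul, hk]
    · refine ⟨Subgroup.pow_mem _ hgN _, Or.inr ⟨_, le_rfl, Subgroup.le_normalizer, fun x hx _ => hx, ?_⟩⟩
      refine Subgroup.subset_closure ⟨Subgroup.pow_mem _ hgN _, ?_⟩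
      have h2 : orderOf (ι y ^ m) ∣ 2 ^ r := by
        apply orderOf_dvd_of_pow_eq_one
        rw [← map_pow, ← map_pow, hr, map_one]
      obtain ⟨j, -, hj⟩ := (Nat.dvd_prime_pow Nat.prime_two).1 h2
      exact ⟨j, hj⟩

end CfsgLib.Wre
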