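import Cfsg.Agent.LibWre2
import Mathlib.LinearAlgebra.Matrix.GeneralLinearGroup.Defs
import Mathlib.LinearAlgebra.Matrix.Determinant.Basic
import Mathlib.LinearAlgebra.Matrix.NonsingularInverse
import Mathlib.LinearAlgebra.Matrix.SpecialLinearGroup
import Mathlib.LinearAlgebra.Dimension.DivisionRing
import Mathlib.Tactic

set_option autoImplicit false

/-! The two-dimensional general linear group in the setting of semidihedral or wreathed type (helper1) -/

namespace CfsgLib.Wre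

open Cfsg CfsgLib.Fus21 Matrix

section gl2

variable {F : Type*} [Field F]

theorem gl_ext {x y : GL (Fin 2) F} (h00 : (x : Matrix (Fin 2) (Fin 2) F) 0 0 = y 0 0) (h01 : (x : Matrix (Fin 2) (Fin 2) F) 0 1 = y 0 1)
    (h10 : (x : Matrix (Fin 2) (Fin 2) F) 1 0 = y 1 0) (h11 : (x : Matrix (Fin 2) (Fin 2) F) 1 1 = y 1 1) : x = y := by
  apply Units.ext
  ext i j
  fin_cases i <;> fin_cases j <;> assumption

theorem gl_mul (x y : GL (Fin 2) F) (i j : Fin 2) : ((x * y : GL (Fin 2) F) : Matrix (Fin 2) (Fin 2) F) i j = x i 0 * y 0 j + x i 1 * y 1 j := by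
  rw [Units.val_mul, Matrix.mul_apply, Fin.sum_univ_two]

theorem gl_det (x : GL (Fin 2) F) : (x : Matrix (Fin 2) (Fin 2) F) 0 0 * x 1 1 - x 0 1 * x 1 0 ≠ 0 := by
  rw [← Matrix.det_fin_two]
  exact (Matrix.isUnit_iff_isUnit_det _).1 x.isUnit |>.ne_zero

def mk2 (a b c d : F) (h : a * d - b * c ≠ 0) : GL (Fin 2) F :=
  Matrix.GeneralLinearGroup.mkOfDetNeZero !![a, b; c, d] (by rwa [Matrix.det_fin_two_of])

@[simp] theorem mk2_00 (a b c d : F) (h) : ((mk2 a b c d h : GL (Fin 2) F) : Matrix (Fin 2) (Fin 2) F) 0 0 = a := rfl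
@[simp] theorem mk2_01 (a b c d : F) (h) : ((mk2 a b c d h : GL (Fin 2) F) : Matrix (Fin 2) (Fin 2) F) 0 1 = b := rfl
@[simp] theorem mk2_10 (a b c d : F) (h) : ((mk2 a b c d h : GL (Fin 2) F) : Matrix (Fin 2) (Fin 2) F) 1 0 = c := rfl
@[simp] theorem mk2_11 (a b c d : F) (h) : ((mk2 a b c d h : GL (Fin 2) F) : Matrix (Fin 2) (Fin 2) F) 1 1 = d := rfl

theorem gl_one (i j : Fin 2) : ((1 : GL (Fin 2) F) : Matrix (Fin 2) (Fin 2) F) i j = if i = j then 1 else 0 := by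
  rw [Units.val_one, Matrix.one_apply]

variable (F)

def J2 : GL (Fin 2) F := mk2 0 (-1) 1 0 (by simp)

def S2 : GL (Fin 2) F := mk2 1 0 0 (-1) (by simp)

variable {F}

theorem mem_A {x : GL (Fin 2) F} : x * J2 F = J2 F * x ↔ (x : Matrix (Fin 2) (Fin 2) F) 1 1 = x 0 0 ∧ (x : Matrix (Fin 2) (Fin 2) F) 0 1 = - x 1 0 := by
  constructor
  · intro h
    have h1 := congrArg (fun z : GL (Fin 2) F => (z : Matrix (Fin 2) (Fin 2) F) 0 0) h
    have h2 := congrArg (fun z : GL (Fin 2) F => (z : Matrix (Fin 2) (Fin 2) F) 1 0) h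
    simp only [gl_mul, J2, mk2_00, mk2_01, mk2_10, mk2_11] at h1 h2
    constructor
    · linear_combination h2
    · linear_combination h1
  · rintro ⟨h1, h2⟩
    apply gl_ext <;> simp only [gl_mul, J2, mk2_00, mk2_01, mk2_10, mk2_11, h1, h2] <;> ring

theorem J2J2 (i j : Fin 2) : ((J2 F * J2 F : GL (Fin 2) F) : Matrix (Fin 2) (Fin 2) F) i j = if i = j then -1 else 0 := by
  rw [gl_mul]
  fin_cases i <;> fin_cases j <;> simp [J2]

theorem sd_gl2 (h2 : (2 : F) ≠ 0) : SD (Subgroup.centralizer {J2 F}) (J2 F) (S2 F) := by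
  have hmem : ∀ x : GL (Fin 2) F, x ∈ Subgroup.centralizer {J2 F} ↔ x * J2 F = J2 F * x := fun x => by
    rw [Subgroup.mem_centralizer_singleton_iff]
  have hmem' : ∀ x : GL (Fin 2) F, x ∈ Subgroup.centralizer {J2 F} ↔ (x : Matrix (Fin 2) (Fin 2) F) 1 1 = x 0 0 ∧ (x : Matrix (Fin 2) (Fin 2) F) 0 1 = - x 1 0 :=
    fun x => (hmem x).trans mem_A
  have hss : S2 F * S2 F = 1 := by
    apply gl_ext <;> simp [gl_mul, S2]
  have hneg : (-1 : F) ≠ 1 := fun h => h2 (by linear_combination -h)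
  have hsc : ∀ x : GL (Fin 2) F, (x : Matrix (Fin 2) (Fin 2) F) 0 1 = 0 → (x : Matrix (Fin 2) (Fin 2) F) 1 0 = 0 →
      (x : Matrix (Fin 2) (Fin 2) F) 1 1 = x 0 0 → ∀ y, y * x = x * y := by
    intro x h01 h10 h11 y
    apply gl_ext <;> simp only [gl_mul, h01, h10, h11] <;> ring
  refine ⟨hmem, ?_, hss, ?_, ?_, ?_, ?_, ?_, ?_, ?_, ?_, ?_⟩
  · intro x hx y hy
    obtain ⟨h3, h4⟩ := (hmem' x).1 hx
    obtain ⟨h5, h6⟩ := (hmem' y).1 hy
    apply gl_ext <;> simp only [gl_mul, h3, h4, h5, h6] <;> ring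
  · rw [eq_inv_iff_mul_eq_one]
    apply gl_ext <;> simp [gl_mul, S2, J2]
  · intro h
    have := congrArg (fun z : GL (Fin 2) F => (z : Matrix (Fin 2) (Fin 2) F) 0 0) h
    simp only [J2J2, gl_one, if_true] at this
    exact hneg this
  · apply gl_ext <;> rw [gl_mul] <;> simp [J2J2]
  · exact hsc _ (by simp [J2J2]) (by simp [J2J2]) (by simp [J2J2])
  · intro a ha
    obtain ⟨h3, h4⟩ := (hmem' a).1 ha
    refine hsc _ ?_ ?_ ?_ <;> simp only [gl_mul, S2, mk2_00, mk2_01, mk2_10, mk2_11, h3, h4] <;> ring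
  · intro a ha hs
    obtain ⟨h3, h4⟩ := (hmem' a).1 ha
    have h5 := congrArg (fun z : GL (Fin 2) F => (z : Matrix (Fin 2) (Fin 2) F) 1 0) hs
    simp only [gl_mul, S2, mk2_00, mk2_01, mk2_10, mk2_11] at h5
    have h6 : (a : Matrix (Fin 2) (Fin 2) F) 1 0 = 0 := by
      have h7 : (2 : F) * (a : Matrix (Fin 2) (Fin 2) F) 1 0 = 0 := by linear_combination -h5
      exact (mul_eq_zero.1 h7).resolve_left h2
    exact hsc _ (by rw [h4, h6, neg_zero]) h6 h3
  · intro x hx ⟨y, hy⟩ hsq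
    obtain ⟨h3, h4⟩ := (hmem' x).1 hx
    have h5 := congrArg (fun z : GL (Fin 2) F => (z : Matrix (Fin 2) (Fin 2) F) 0 0) hsq
    have h6 := congrArg (fun z : GL (Fin 2) F => (z : Matrix (Fin 2) (Fin 2) F) 1 0) hsq
    simp only [J2J2] at h5 h6
    rw [gl_mul] at h5 h6
    rw [h4] at h5
    rw [h3] at h6
    simp only [if_true] at h5
    have h6' : (2 : F) * ((x : Matrix (Fin 2) (Fin 2) F) 0 0 * x 1 0) = 0 := by
      have : (x : Matrix (Fin 2) (Fin 2) F) 1 0 * x 0 0 + x 0 0 * x 1 0 = 0 := h6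
      linear_combination this
    have h7 := (mul_eq_zero.1 h6').resolve_left h2
    rcases mul_eq_zero.1 h7 with h8 | h8
    · rw [h8] at h5
      have h9 : ((x : Matrix (Fin 2) (Fin 2) F) 1 0 - 1) * (x 1 0 + 1) = 0 := by linear_combination -h5
      rcases mul_eq_zero.1 h9 with h10 | h10
      · left
        have h11 : (x : Matrix (Fin 2) (Fin 2) F) 1 0 = 1 := by linear_combination h10
        apply gl_ext <;> simp [J2, h3, h4, h8, h11]
      · right
        have h11 : (x : Matrix (Fin 2) (Fin 2) F) 1 0 = -1 := by linear_combination h10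
        rw [eq_inv_iff_mul_eq_one]
        apply gl_ext <;> simp [gl_mul, J2, h3, h4, h8, h11]
    · exact absurd ((hsc x (by rw [h4, h8, neg_zero]) h8 h3 y).symm) hy
  · refine ⟨mk2 1 (-1) 1 1 (by ring_nf; exact h2), (hmem' _).2 ⟨rfl, rfl⟩, ?_⟩
    have hsi : (S2 F)⁻¹ = S2 F := inv_eq_of_mul_eq_one_right hss
    have h3 : mk2 1 (-1) 1 1 (by ring_nf; exact h2) = J2 F * (S2 F * mk2 1 (-1) 1 1 (by ring_nf; exact h2) * S2 F) := by
      apply gl_ext <;> simp [gl_mul, S2, J2]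
    have h4 : S2 F * (mk2 1 (-1) 1 1 (by ring_nf; exact h2))⁻¹ * S2 F = (S2 F * mk2 1 (-1) 1 1 (by ring_nf; exact h2) * S2 F)⁻¹ := by
      rw [_root_.mul_inv_rev, _root_.mul_inv_rev, hsi]; group
    rw [h4, mul_inv_eq_iff_eq_mul]
    exact h3
  · intro x hx hx2
    obtain ⟨h3, h4⟩ := mem_A.1 ((hx (J2 F)).symm)
    have h5 := congrArg (fun z : GL (Fin 2) F => (z : Matrix (Fin 2) (Fin 2) F) 1 0) (hx (S2 F))
    simp only [gl_mul, S2, mk2_00, mk2_01, mk2_10, mk2_11] at h5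
    have h6 : (x : Matrix (Fin 2) (Fin 2) F) 1 0 = 0 := by
      have h7 : (2 : F) * (x : Matrix (Fin 2) (Fin 2) F) 1 0 = 0 := by linear_combination -h5
      exact (mul_eq_zero.1 h7).resolve_left h2
    have h01 : (x : Matrix (Fin 2) (Fin 2) F) 0 1 = 0 := by rw [h4, h6, neg_zero]
    have h7 := congrArg (fun z : GL (Fin 2) F => (z : Matrix (Fin 2) (Fin 2) F) 0 0) hx2
    simp only [gl_mul, gl_one, if_true, h01, zero_mul, add_zero] at h7
    have h8 : ((x : Matrix (Fin 2) (Fin 2) F) 0 0 - 1) * (x 0 0 + 1) = 0 := by linear_combination h7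
    rcases mul_eq_zero.1 h8 with h10 | h10
    · left
      have h11 : (x : Matrix (Fin 2) (Fin 2) F) 0 0 = 1 := by linear_combination h10
      apply gl_ext <;> simp [h3, h01, h6, h11]
    · right
      have h11 : (x : Matrix (Fin 2) (Fin 2) F) 0 0 = -1 := by linear_combination h10
      apply gl_ext <;> simp [J2J2, h3, h01, h6, h11]

end gl2

end CfsgLib.Wre
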