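import Cfsg.Agent.LibWre3

set_option autoImplicit false

/-! The Sylow 2-subgroups of `SL₃` (helper1) -/

namespace CfsgLib.Wre

open Cfsg CfsgLib.Fus21 Matrix

section sl3

variable {F : Type*} [Field F]

theorem sl3_ext {x y : SpecialLinearGroup (Fin 3) F} (h : ∀ i j, x.1 i j = y.1 i j) : x = y := by
  apply Subtype.ext
  ext i j
  exact h i j

theorem sl3_mul (x y : SpecialLinearGroup (Fin 3) F) (i j : Fin 3) : (x * y).1 i j = x.1 i 0 * y.1 0 j + x.1 i 1 * y.1 1 j + x.1 i 2 * y.1 2 j := by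
  show (x.1 * y.1) i j = _
  rw [Matrix.mul_apply, Fin.sum_univ_three]

theorem sl3_det (x : SpecialLinearGroup (Fin 3) F) : x.1 0 0 * x.1 1 1 * x.1 2 2 - x.1 0 0 * x.1 1 2 * x.1 2 1 - x.1 0 1 * x.1 1 0 * x.1 2 2 + x.1 0 1 * x.1 1 2 * x.1 2 0 +
    x.1 0 2 * x.1 1 0 * x.1 2 1 - x.1 0 2 * x.1 1 1 * x.1 2 0 = 1 := by
  rw [← Matrix.det_fin_three]; exact x.2

/-- the embedding -/
def iotaMat (x : GL (Fin 2) F) : Matrix (Fin 3) (Fin 3) F :=
  !![(x : Matrix (Fin 2) (Fin 2) F) 0 0, (x : Matrix (Fin 2) (Fin 2) F) 0 1, 0; (x : Matrix (Fin 2) (Fin 2) F) 1 0, (x : Matrix (Fin 2) (Fin 2) F) 1 1, 0;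
    0, 0, ((x : Matrix (Fin 2) (Fin 2) F) 0 0 * x 1 1 - x 0 1 * x 1 0)⁻¹]

theorem iotaMat_det (x : GL (Fin 2) F) : (iotaMat x).det = 1 := by
  rw [Matrix.det_fin_three]
  have := gl_det x
  simp only [iotaMat, Matrix.of_apply, Matrix.cons_val', Matrix.cons_val_zero, Matrix.cons_val_one, Matrix.cons_val_fin_one, Matrix.cons_val]
  field_simp
  ring

def iota : GL (Fin 2) F →* SpecialLinearGroup (Fin 3) F where
  toFun x := ⟨iotaMat x, iotaMat_det x⟩
  map_one' := by
    apply sl3_ext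
    intro i j
    fin_cases i <;> fin_cases j <;> simp [iotaMat]
  map_mul' x y := by
    apply sl3_ext
    intro i j
    refine Eq.trans ?_ (sl3_mul _ _ i j).symm
    have h1 := gl_det x
    have h2 := gl_det y
    show iotaMat (x * y) i j = iotaMat x i 0 * iotaMat y 0 j + iotaMat x i 1 * iotaMat y 1 j + iotaMat x i 2 * iotaMat y 2 j
    fin_cases i <;> fin_cases j <;> simp [iotaMat, gl_mul]
    rw [← _root_.mul_inv]
    congr 1
    ring

theorem iota_apply (x : GL (Fin 2) F) (i j : Fin 3) : (iota x).1 i j = iotaMat x i j := rfl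

theorem iota_inj : Function.Injective (iota : GL (Fin 2) F →* SpecialLinearGroup (Fin 3) F) := by
  intro x y h
  have h' : ∀ i j, (iota x).1 i j = (iota y).1 i j := fun i j => by rw [h]
  have h00 := h' 0 0
  have h01 := h' 0 1
  have h10 := h' 1 0
  have h11 := h' 1 1
  exact gl_ext h00 h01 h10 h11

theorem iota_JJ (i j : Fin 3) : (iota (J2 F * J2 F) : SpecialLinearGroup (Fin 3) F).1 i j = if i = j then (if i = 2 then 1 else -1) else 0 := by
  rw [iota_apply]
  simp only [iotaMat, J2J2]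
  fin_cases i <;> fin_cases j <;> simp

/-- the centralizer of the central involution -/
theorem iota_range (h2 : (2 : F) ≠ 0) (x : SpecialLinearGroup (Fin 3) F) (hx : x * iota (J2 F * J2 F) = iota (J2 F * J2 F) * x) :
    ∃ y, iota y = x := by
  have hJ := @iota_JJ F _
  have h' : ∀ i j, (x * iota (J2 F * J2 F)).1 i j = (iota (J2 F * J2 F) * x).1 i j := fun i j => by rw [hx]
  have h02 := h' 0 2
  have h12 := h' 1 2
  have h20 := h' 2 0
  have h21 := h' 2 1
  rw [sl3_mul, sl3_mul] at h02 h12 h20 h21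
  simp only [hJ] at h02 h12 h20 h21
  simp at h02 h12 h20 h21
  have e02 : x.1 0 2 = 0 := (mul_eq_zero.1 (show (2 : F) * x.1 0 2 = 0 by linear_combination h02)).resolve_left h2
  have e12 : x.1 1 2 = 0 := (mul_eq_zero.1 (show (2 : F) * x.1 1 2 = 0 by linear_combination h12)).resolve_left h2
  have e20 : x.1 2 0 = 0 := (mul_eq_zero.1 (show (2 : F) * x.1 2 0 = 0 by linear_combination -h20)).resolve_left h2
  have e21 : x.1 2 1 = 0 := (mul_eq_zero.1 (show (2 : F) * x.1 2 1 = 0 by linear_combination -h21)).resolve_left h2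
  have hd := sl3_det x
  rw [e02, e12, e20, e21] at hd
  have hd' : (x.1 0 0 * x.1 1 1 - x.1 0 1 * x.1 1 0) * x.1 2 2 = 1 := by linear_combination hd
  have hne : x.1 0 0 * x.1 1 1 - x.1 0 1 * x.1 1 0 ≠ 0 := left_ne_zero_of_mul (by rw [hd']; exact one_ne_zero)
  refine ⟨mk2 (x.1 0 0) (x.1 0 1) (x.1 1 0) (x.1 1 1) hne, ?_⟩
  apply sl3_ext
  intro i j
  rw [iota_apply]
  have h22 : x.1 2 2 = (x.1 0 0 * x.1 1 1 - x.1 0 1 * x.1 1 0)⁻¹ := eq_inv_of_mul_eq_one_right hd'
  fin_cases i <;> fin_cases j <;> simp [iotaMat, e02, e12, e20, e21, h22]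

/-- involutions of `SL₃` -/
theorem sl3_involution (h2 : (2 : F) ≠ 0) (x : SpecialLinearGroup (Fin 3) F) (hx : x * x = 1) (hx1 : x ≠ 1) :
    ∃ g : SpecialLinearGroup (Fin 3) F, g * x * g⁻¹ = iota (J2 F * J2 F) := by
  have hJ := @iota_JJ F _
  set X : Matrix (Fin 3) (Fin 3) F := x.1 with hX
  have hXX : X * X = 1 := by
    exact congrArg Subtype.val hx
  have hXv : ∀ v, X *ᵥ (X *ᵥ v) = v := fun v => by rw [Matrix.mulVec_mulVec, hXX, Matrix.one_mulVec]
  -- the eigenvectors
  obtain ⟨w, hw, hw0⟩ : ∃ w : Fin 3 → F, X *ᵥ w = -w ∧ w ≠ 0 := by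
    by_contra hcon
    push Not at hcon
    apply hx1
    apply Subtype.ext
    have h1 : ∀ v, X *ᵥ v = v := by
      intro v
      have h2 := hcon (X *ᵥ v - v) (by rw [Matrix.mulVec_sub, hXv]; abel)
      exact sub_eq_zero.1 h2
    exact Matrix.ext_of_mulVec_single fun i => by rw [← hX, h1]; exact (Matrix.one_mulVec _).symm
  obtain ⟨u, hu, hu0⟩ : ∃ u : Fin 3 → F, X *ᵥ u = u ∧ u ≠ 0 := by
    by_contra hcon
    push Not at hcon
    have h1 : ∀ v, X *ᵥ v = -v := by
      intro v
      have h2 := hcon (X *ᵥ v + v) (by rw [Matrix.mulVec_add, hXv]; abel)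
      exact eq_neg_of_add_eq_zero_left h2
    have h3 : X = -1 := by
      refine Matrix.ext_of_mulVec_single fun i => ?_
      rw [h1, Matrix.neg_mulVec, Matrix.one_mulVec]
    have h4 : X.det = 1 := x.2
    rw [h3, Matrix.det_neg, Matrix.det_one, Fintype.card_fin] at h4
    apply h2
    have : ((-1 : F)) ^ 3 * 1 = -1 := by ring
    rw [this] at h4
    linear_combination -h4
  have hli : LinearIndependent F ![w, u] := by
    rw [LinearIndependent.pair_iff]
    intro a b hab
    have h3 := congrArg (fun v => X *ᵥ v) hab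
    simp only [Matrix.mulVec_add, Matrix.mulVec_smul, hw, hu, Matrix.mulVec_zero] at h3
    have h4 : (2 : F) • (b • u) = 0 := by
      have : (2 : F) • (b • u) = (a • w + b • u) + (a • -w + b • u) := by
        rw [smul_neg, two_smul]; abel
      rw [this, hab, h3, add_zero]
    have hb : b = 0 := by
      rw [smul_smul, smul_eq_zero] at h4
      exact (mul_eq_zero.1 (h4.resolve_right hu0)).resolve_left h2
    rw [hb, zero_smul, add_zero, smul_eq_zero] at hab
    exact ⟨hab.resolve_right hw0, hb⟩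
  obtain ⟨y, hy⟩ := exists_linearIndependent_cons_of_lt_finrank hli (by rw [Module.finrank_fin_fun]; norm_num)
  let M : Matrix (Fin 3) (Fin 3) F := (Matrix.of (Fin.cons y ![w, u] : Fin 3 → Fin 3 → F))ᵀ
  have hMu : IsUnit M := by
    rw [Matrix.isUnit_transpose]
    exact Matrix.linearIndependent_rows_iff_isUnit.1 hy
  have hM0 : ∀ i, M i 0 = y i := fun i => rfl
  have hM1 : ∀ i, M i 1 = w i := fun i => rfl
  have hM2 : ∀ i, M i 2 = u i := fun i => rfl
  obtain ⟨M', hM'⟩ := hMu
  -- the conjugate matrix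
  let N : Matrix (Fin 3) (Fin 3) F := (↑M'⁻¹ : Matrix (Fin 3) (Fin 3) F) * X * M
  have hMN : M * N = X * M := by
    show M * ((↑M'⁻¹ : Matrix (Fin 3) (Fin 3) F) * X * M) = X * M
    rw [← mul_assoc, ← mul_assoc, ← hM', ← Units.val_mul, mul_inv_cancel, Units.val_one, one_mul]
  have hcol : ∀ v v' : Fin 3 → F, M *ᵥ v = M *ᵥ v' → v = v' := by
    intro v v' h
    have := congrArg (fun z => (↑M'⁻¹ : Matrix (Fin 3) (Fin 3) F) *ᵥ z) h
    simp only [Matrix.mulVec_mulVec, ← hM', ← Units.val_mul, inv_mul_cancel, Units.val_one, Matrix.one_mulVec] at this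
    exact this
  have hMe0 : M *ᵥ Pi.single 0 1 = y := by ext i; rw [Matrix.mulVec_single_one]; rfl
  have hMe1 : M *ᵥ Pi.single 1 1 = w := by ext i; rw [Matrix.mulVec_single_one]; rfl
  have hMe2 : M *ᵥ Pi.single 2 1 = u := by ext i; rw [Matrix.mulVec_single_one]; rfl
  have hN1 : N *ᵥ Pi.single 1 1 = -Pi.single 1 1 := by
    apply hcol
    rw [Matrix.mulVec_mulVec, hMN, ← Matrix.mulVec_mulVec, hMe1, hw, Matrix.mulVec_neg, hMe1]
  have hN2 : N *ᵥ Pi.single 2 1 = Pi.single 2 1 := by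
    apply hcol
    rw [Matrix.mulVec_mulVec, hMN, ← Matrix.mulVec_mulVec, hMe2, hu]
  have n01 : N 0 1 = 0 := by
    have := congrFun hN1 0
    rw [Matrix.mulVec_single_one] at this
    simpa using this
  have n11 : N 1 1 = -1 := by
    have := congrFun hN1 1
    rw [Matrix.mulVec_single_one] at this
    simpa using this
  have n21 : N 2 1 = 0 := by
    have := congrFun hN1 2
    rw [Matrix.mulVec_single_one] at this
    simpa using this
  have n02 : N 0 2 = 0 := by
    have := congrFun hN2 0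
    rw [Matrix.mulVec_single_one] at this
    simpa using this
  have n12 : N 1 2 = 0 := by
    have := congrFun hN2 1
    rw [Matrix.mulVec_single_one] at this
    simpa using this
  have n22 : N 2 2 = 1 := by
    have := congrFun hN2 2
    rw [Matrix.mulVec_single_one] at this
    simpa using this
  have hdetM : M.det ≠ 0 := ((Matrix.isUnit_iff_isUnit_det M).1 ⟨M', hM'⟩).ne_zero
  have hdN : N.det = 1 := by
    have h3 : (M * N).det = (X * M).det := congrArg Matrix.det hMN
    have h4 : X.det = 1 := x.2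
    have h5 : M.det * N.det = X.det * M.det := by
      rw [← Matrix.det_mul, ← Matrix.det_mul]; exact h3
    rw [h4, one_mul] at h5
    exact mul_left_cancel₀ hdetM (h5.trans (mul_one _).symm)
  have n00 : N 0 0 = -1 := by
    rw [Matrix.det_fin_three, n01, n11, n21, n02, n12, n22] at hdN
    linear_combination -hdN
  have hNN : N * N = 1 := by
    have h3 : M * (N * N) = M := by rw [← mul_assoc, hMN, mul_assoc, hMN, ← mul_assoc, hXX, one_mul]
    have h4 : (↑M'⁻¹ : Matrix (Fin 3) (Fin 3) F) * M = 1 := by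
      rw [← hM', ← Units.val_mul, inv_mul_cancel, Units.val_one]
    calc N * N = (↑M'⁻¹ : Matrix (Fin 3) (Fin 3) F) * M * (N * N) := by rw [h4, one_mul]
      _ = (↑M'⁻¹ : Matrix (Fin 3) (Fin 3) F) * (M * (N * N)) := mul_assoc _ _ _
      _ = 1 := by rw [h3, h4]
  have n10 : N 1 0 = 0 := by
    have := congrFun (congrFun hNN 1) 0
    rw [Matrix.mul_apply, Fin.sum_univ_three, n00, n11, n12] at this
    simp at this
    exact (mul_eq_zero.1 (show (2 : F) * N 1 0 = 0 by linear_combination -this)).resolve_left h2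
  -- the final matrix
  set b := N 2 0 with hb
  set d := M.det with hd
  let K : Matrix (Fin 3) (Fin 3) F := !![d⁻¹, 0, 0; 0, 1, 0; -(b / 2) * d⁻¹, 0, 1]
  have hKdet : K.det = d⁻¹ := by
    rw [Matrix.det_fin_three]
    simp [K]
  have hgdet : (M * K).det = 1 := by rw [Matrix.det_mul, hKdet, ← hd, mul_inv_cancel₀ hdetM]
  let g : SpecialLinearGroup (Fin 3) F := ⟨M * K, hgdet⟩
  have hNK : N * K = K * (iota (J2 F * J2 F) : SpecialLinearGroup (Fin 3) F).1 := by
    ext i j
    rw [Matrix.mul_apply, Matrix.mul_apply, Fin.sum_univ_three, Fin.sum_univ_three, hJ, hJ, hJ]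
    fin_cases i <;> fin_cases j <;> simp [K, n00, n01, n02, n10, n11, n12, n21, n22, ← hb]
    field_simp
    ring
  refine ⟨g⁻¹, ?_⟩
  have h5 : x * g = g * iota (J2 F * J2 F) := by
    apply Subtype.ext
    show X * (M * K) = M * K * _
    rw [← mul_assoc, ← hMN, mul_assoc, hNK, ← mul_assoc]
  rw [inv_inv, mul_assoc, h5, inv_mul_cancel_left]

end sl3

end CfsgLib.Wre
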