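import Cfsg.Agent.LibWre4

set_option autoImplicit false

/-! The Sylow 2-subgroups of `SL₃`: simplicity data (helper1) -/

namespace CfsgLib.Wre

open Cfsg CfsgLib.Fus21 Matrix

section sl3b

variable {F : Type*} [Field F]

theorem gl_scal (x : GL (Fin 2) F) (hx : x * J2 F = J2 F * x) : ∀ i j, ((x * (S2 F * x * S2 F) : GL (Fin 2) F) : Matrix (Fin 2) (Fin 2) F) i j =
    if i = j then ((x : Matrix (Fin 2) (Fin 2) F) 0 0 * x 1 1 - x 0 1 * x 1 0) else 0 := by
  obtain ⟨h1, h2⟩ := mem_A.1 hx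
  intro i j
  fin_cases i <;> fin_cases j <;> simp [gl_mul, S2, h1, h2] <;> ring

/-- diagonal matrices -/
def dg (x y : F) (h : x * y ≠ 0) : GL (Fin 2) F := mk2 x 0 0 y (by simpa using h)

theorem dg_mul (x y z w : F) (h h') : dg x y h * dg z w h' = dg (x * z) (y * w) (by
    have h1 : x * z * (y * w) = (x * y) * (z * w) := by ring
    rw [h1]; exact mul_ne_zero h h') := by
  apply gl_ext <;> simp [gl_mul, dg]

theorem dg_one : dg (1 : F) 1 (by simp) = 1 := by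
  apply gl_ext <;> simp [gl_one, dg]

theorem dg_pow (x y : F) (h) (n : ℕ) : dg x y h ^ n = dg (x ^ n) (y ^ n) (by rw [← mul_pow]; exact pow_ne_zero n h) := by
  induction n with
  | zero =>
    rw [pow_zero, ← dg_one]
    apply gl_ext <;> simp [dg]
  | succ n ih =>
    rw [pow_succ, ih, dg_mul]
    apply gl_ext <;> simp [dg, pow_succ]

/-- the matrix of eigenvectors of `J` -/
def Mi (i : F) (h2 : (2 : F) ≠ 0) (hi : i * i = -1) : GL (Fin 2) F := mk2 1 1 (-i) i (by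
  have hi0 : i ≠ 0 := by rintro rfl; simp at hi
  have : (1 : F) * i - 1 * -i = 2 * i := by ring
  rw [this]; exact mul_ne_zero h2 hi0)

theorem J_Mi (i : F) (h2 : (2 : F) ≠ 0) (hi : i * i = -1) : J2 F * Mi i h2 hi = Mi i h2 hi * dg i (-i) (by
    rw [mul_neg, hi]; simp) := by
  apply gl_ext <;> simp [gl_mul, dg, Mi, J2, hi]

theorem S_Mi (i : F) (h2 : (2 : F) ≠ 0) (hi : i * i = -1) : S2 F * Mi i h2 hi = Mi i h2 hi * mk2 0 1 1 0 (by simp) := by
  apply gl_ext <;> simp [gl_mul, Mi, S2]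

theorem dg_comm (x y z w : F) (h h') : dg x y h * dg z w h' = dg z w h' * dg x y h := by
  apply gl_ext <;> simp [gl_mul, dg, mul_comm]

/-- the elements of the torus -/
def Di (i : F) (h2 : (2 : F) ≠ 0) (hi : i * i = -1) (x y : F) (h : x * y ≠ 0) : GL (Fin 2) F := Mi i h2 hi * dg x y h * (Mi i h2 hi)⁻¹

theorem Di_J (i : F) (h2 : (2 : F) ≠ 0) (hi : i * i = -1) (x y : F) (h : x * y ≠ 0) : Di i h2 hi x y h * J2 F = J2 F * Di i h2 hi x y h := by
  set M := Mi i h2 hi with hM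
  have h1 : J2 F = M * dg i (-i) (by rw [mul_neg, hi]; simp) * M⁻¹ := by
    rw [eq_mul_inv_iff_mul_eq]; exact J_Mi i h2 hi
  have h3 : Di i h2 hi x y h = M * dg x y h * M⁻¹ := rfl
  rw [h3]
  conv_lhs => rw [h1]
  conv_rhs => rw [h1]
  calc M * dg x y h * M⁻¹ * (M * dg i (-i) _ * M⁻¹) = M * (dg x y h * dg i (-i) (by rw [mul_neg, hi]; simp)) * M⁻¹ := by group
    _ = M * (dg i (-i) (by rw [mul_neg, hi]; simp) * dg x y h) * M⁻¹ := by rw [dg_comm]
    _ = _ := by group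

theorem Di_S (i : F) (h2 : (2 : F) ≠ 0) (hi : i * i = -1) (x y : F) (h : x * y ≠ 0) : S2 F * Di i h2 hi x y h * S2 F = Di i h2 hi y x (by rwa [mul_comm]) := by
  set M := Mi i h2 hi with hM
  have h3 : Di i h2 hi x y h = M * dg x y h * M⁻¹ := rfl
  have h4 : Di i h2 hi y x (by rwa [mul_comm]) = M * dg y x (by rwa [mul_comm]) * M⁻¹ := rfl
  have h5 := S_Mi i h2 hi
  rw [← hM] at h5
  have hss : S2 F * S2 F = 1 := by
    apply gl_ext <;> simp [gl_mul, S2, gl_one]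
  have hsi : (S2 F)⁻¹ = S2 F := inv_eq_of_mul_eq_one_right hss
  set w : GL (Fin 2) F := mk2 0 1 1 0 (by simp) with hw
  have hww : w * w = 1 := by
    apply gl_ext <;> simp [gl_mul, hw, gl_one]
  have hwi : w⁻¹ = w := inv_eq_of_mul_eq_one_right hww
  have h6 : M⁻¹ * S2 F = w * M⁻¹ := by
    have := congrArg (·⁻¹) h5
    simp only [_root_.mul_inv_rev, hsi, hwi] at this
    exact this
  have h7 : w * dg x y h * w = dg y x (by rwa [mul_comm]) := by
    apply gl_ext <;> simp [gl_mul, hw, dg]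
  rw [h3, h4, ← h7]
  calc S2 F * (M * dg x y h * M⁻¹) * S2 F = (S2 F * M) * dg x y h * (M⁻¹ * S2 F) := by group
    _ = (M * w) * dg x y h * (w * M⁻¹) := by rw [h5, h6]
    _ = _ := by group

theorem Di_mul (i : F) (h2 : (2 : F) ≠ 0) (hi : i * i = -1) (x y z w : F) (h : x * y ≠ 0) (h' : z * w ≠ 0) :
    Di i h2 hi x y h * Di i h2 hi z w h' = Di i h2 hi (x * z) (y * w) (by
      have h1 : x * z * (y * w) = (x * y) * (z * w) := by ring
      rw [h1]; exact mul_ne_zero h h') := by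
  unfold Di
  rw [← dg_mul _ _ _ _ h h']
  group

theorem Di_pow (i : F) (h2 : (2 : F) ≠ 0) (hi : i * i = -1) (x y : F) (h : x * y ≠ 0) (n : ℕ) :
    Di i h2 hi x y h ^ n = Di i h2 hi (x ^ n) (y ^ n) (by rw [← mul_pow]; exact pow_ne_zero n h) := by
  unfold Di
  rw [← dg_pow, conj_pow]

theorem Di_scal (i : F) (h2 : (2 : F) ≠ 0) (hi : i * i = -1) (x : F) (h : x * x ≠ 0) : Di i h2 hi x x h = dg x x h := by
  unfold Di
  rw [mul_inv_eq_iff_eq_mul]
  apply gl_ext <;> simp [gl_mul, dg, Mi, mul_comm]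

theorem gl_scal_eq (x : GL (Fin 2) F) (hx : x * J2 F = J2 F * x) : x * (S2 F * x * S2 F) = dg ((x : Matrix (Fin 2) (Fin 2) F) 0 0 * x 1 1 - x 0 1 * x 1 0)
    ((x : Matrix (Fin 2) (Fin 2) F) 0 0 * x 1 1 - x 0 1 * x 1 0) (mul_ne_zero (gl_det x) (gl_det x)) := by
  apply gl_ext <;> rw [gl_scal x hx] <;> simp [dg]

theorem pm_one_of (hno : ¬ ∃ i : F, i * i = -1) (k : ℕ) (n : F) (h : n ^ 2 ^ k = 1) : n = 1 ∨ n = -1 := by
  induction k generalizing n with
  | zero => left; simpa using h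
  | succ k ih =>
    rw [pow_succ', pow_mul] at h
    rcases ih _ h with h1 | h1
    · have h2 : (n - 1) * (n + 1) = 0 := by linear_combination h1
      rcases mul_eq_zero.1 h2 with h3 | h3
      · left; linear_combination h3
      · right; linear_combination h3
    · exact absurd ⟨n, by rw [← pow_two, h1]⟩ hno

theorem scal_pow {x : GL (Fin 2) F} (hx : x * J2 F = J2 F * x) {k : ℕ} (hk : x ^ 2 ^ k = 1) :
    ((x : Matrix (Fin 2) (Fin 2) F) 0 0 * x 1 1 - x 0 1 * x 1 0) ^ 2 ^ k = 1 := by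
  have h1 : (x : Matrix (Fin 2) (Fin 2) F).det ^ 2 ^ k = 1 := by
    rw [← Matrix.det_pow, ← Units.val_pow_eq_pow_val, hk, Units.val_one, Matrix.det_one]
  rwa [Matrix.det_fin_two] at h1

def piM : SpecialLinearGroup (Fin 3) F := ⟨!![1, 0, 0; 0, 0, -1; 0, 1, 0], by rw [Matrix.det_fin_three]; simp⟩

theorem pi_conj (n : F) (hn : n ≠ 0) : (piM : SpecialLinearGroup (Fin 3) F) * iota (dg n n⁻¹ (by simp [hn])) = iota (dg n 1 (by simpa using hn)) * piM := by
  apply sl3_ext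
  intro i j
  rw [sl3_mul, sl3_mul]
  simp only [iota_apply]
  fin_cases i <;> fin_cases j <;> simp [iotaMat, piM, dg, hn]

theorem sl3_simpleData [Finite F] (h2 : (2 : F) ≠ 0) : SimpleData 2 ((sd_gl2 h2).P.map (iota : GL (Fin 2) F →* SpecialLinearGroup (Fin 3) F)) := by
  refine (sd_gl2 h2).simpleData iota iota_inj (iota_range h2) (sl3_involution h2) ?_
  intro c hc
  set h := sd_gl2 h2 with hh
  obtain ⟨hcA, k, hk⟩ := hc
  have hcJ := (h.hA c).1 hcA
  set n := ((c : Matrix (Fin 2) (Fin 2) F) 0 0 * c 1 1 - c 0 1 * c 1 0) with hn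
  have hn0 : n ≠ 0 := gl_det c
  have hnk : n ^ 2 ^ k = 1 := scal_pow hcJ hk
  have hcs := gl_scal_eq c hcJ
  by_cases hi : ∃ i : F, i * i = -1
  · obtain ⟨i, hi⟩ := hi
    refine ⟨Di i h2 hi n 1 (by simpa using hn0), ⟨(h.hA _).2 (Di_J _ _ _ _ _ _), k, ?_⟩, ?_, Di i h2 hi n n⁻¹ (by simp [hn0]), ⟨(h.hA _).2 (Di_J _ _ _ _ _ _), k, ?_⟩, ?_, ?_⟩
    · rw [Di_pow]
      simp only [hnk, one_pow]
      rw [Di_scal, dg_one]
    · rw [Di_S, Di_mul, hcs]
      simp only [one_mul, mul_one]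
      rw [Di_scal]
    · rw [Di_pow]
      simp only [inv_pow, hnk, inv_one]
      rw [Di_scal, dg_one]
    · rw [Di_S, Di_mul]
      simp only [mul_inv_cancel₀ hn0, inv_mul_cancel₀ hn0]
      rw [Di_scal, dg_one]
    · refine ⟨iota (Mi i h2 hi) * piM * (iota (Mi i h2 hi))⁻¹, Or.inl ?_⟩
      set M : SpecialLinearGroup (Fin 3) F := iota (Mi i h2 hi) with hM
      have h3 : iota (Di i h2 hi n n⁻¹ (by simp [hn0])) = M * iota (dg n n⁻¹ (by simp [hn0])) * M⁻¹ := by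
        rw [Di, map_mul, map_mul, map_inv]
      have h4 : iota (Di i h2 hi n 1 (by simpa using hn0)) = M * iota (dg n 1 (by simpa using hn0)) * M⁻¹ := by
        rw [Di, map_mul, map_mul, map_inv]
      rw [h3, h4]
      calc M * piM * M⁻¹ * (M * iota (dg n n⁻¹ _) * M⁻¹) * (M * piM * M⁻¹)⁻¹ = M * (piM * iota (dg n n⁻¹ (by simp [hn0]))) * piM⁻¹ * M⁻¹ := by group
        _ = M * (iota (dg n 1 (by simpa using hn0)) * piM) * piM⁻¹ * M⁻¹ := by rw [pi_conj n hn0]
        _ = _ := by group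
  · rcases pm_one_of hi k n hnk with h1 | h1
    · refine ⟨1, h.C.one_mem, ?_, 1, h.C.one_mem, ?_, 1, Or.inl ?_⟩
      · rw [hcs, mul_one, one_mul, h.s2]
        apply gl_ext <;> simp [dg, ← hn, h1, gl_one]
      · rw [mul_one, one_mul, h.s2]
      · simp
    · refine ⟨c, ⟨hcA, k, hk⟩, rfl, J2 F, h.JC, ?_, ?_⟩
      · rw [h.sJ, mul_inv_cancel]
      · obtain ⟨e1, e2⟩ := mem_A.1 hcJ
        have hb : (c : Matrix (Fin 2) (Fin 2) F) 1 0 ≠ 0 := by
          intro hb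
          apply hi
          refine ⟨c 0 0, ?_⟩
          rw [hn, e1, e2, hb] at h1
          linear_combination h1
        have hdet : (1 : F) * c 1 0 - c 0 0 * 0 ≠ 0 := by simpa using hb
        refine ⟨iota (mk2 1 (c 0 0) 0 (c 1 0) hdet), Or.inr ?_⟩
        rw [← map_inv, ← map_mul, ← map_mul]
        congr 1
        rw [mul_inv_eq_iff_eq_mul]
        have h3 : (c : Matrix (Fin 2) (Fin 2) F) 0 0 * c 0 0 + c 1 0 * c 1 0 = -1 := by
          rw [← h1, hn, e1, e2]; ring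
        apply gl_ext <;> simp [gl_mul, J2, S2, e1, e2]
        · linear_combination -h3
        · ring

end sl3b

end CfsgLib.Wre
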