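import Cfsg.Agent.LibWre5
import Cfsg.Agent.LibSU27
import Cfsg.Agent.LibH22Un3

set_option autoImplicit false

/-! The Sylow 2-subgroups of `SU₃` (helper1) -/

namespace CfsgLib.Wre

open Cfsg CfsgLib.Fus21 Matrix CfsgLib.SU27

theorem SD.restrict {G : Type*} [Group G] {A : Subgroup G} {J s : G} (h : SD A J s) (K : Subgroup G) (hJ : J ∈ K) (hs : s ∈ K)
    (hcom : ∃ c ∈ A, c ∈ K ∧ c * (s * c⁻¹ * s) = J)
    (hcen : ∀ x ∈ K, (∀ y ∈ K, y * x = x * y) → x * x = 1 → x = 1 ∨ x = J * J) : SD (A.subgroupOf K) (⟨J, hJ⟩ : K) ⟨s, hs⟩ := by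
  refine ⟨?_, ?_, ?_, ?_, ?_, ?_, ?_, ?_, ?_, ?_, ?_, ?_⟩
  · rintro ⟨x, hx⟩
    rw [Subgroup.mem_subgroupOf, h.hA]
    constructor
    · intro h1; exact Subtype.ext h1
    · intro h1; exact congrArg Subtype.val h1
  · rintro ⟨x, hx⟩ hxA ⟨y, hy⟩ hyA
    exact Subtype.ext (h.comm x hxA y hyA)
  · exact Subtype.ext h.s2
  · exact Subtype.ext h.sJ
  · intro h1; exact h.J2 (congrArg Subtype.val h1)
  · exact Subtype.ext h.J4
  · rintro ⟨x, hx⟩; exact Subtype.ext (h.Jc x)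
  · rintro ⟨a, ha⟩ haA ⟨x, hx⟩
    exact Subtype.ext (h.nrm a haA x)
  · rintro ⟨a, ha⟩ haA h1 ⟨x, hx⟩
    exact Subtype.ext (h.fix a haA (congrArg Subtype.val h1) x)
  · rintro ⟨x, hx⟩ hxA ⟨⟨y, hy⟩, hxy⟩ h1
    rcases h.sq x hxA ⟨y, fun h2 => hxy (Subtype.ext h2)⟩ (congrArg Subtype.val h1) with h2 | h2
    · left; exact Subtype.ext h2
    · right; exact Subtype.ext h2
  · obtain ⟨c, hcA, hcK, hc⟩ := hcom
    exact ⟨⟨c, hcK⟩, hcA, Subtype.ext hc⟩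
  · rintro ⟨x, hx⟩ h1 h2
    rcases hcen x hx (fun y hy => congrArg Subtype.val (h1 ⟨y, hy⟩)) (congrArg Subtype.val h2) with h3 | h3
    · left; exact Subtype.ext h3
    · right; exact Subtype.ext h3

section su3

variable {F : Type*} [Field F]

theorem gl_cen (h2 : (2 : F) ≠ 0) (x : GL (Fin 2) F) (hJ : x * J2 F = J2 F * x) (hS : x * S2 F = S2 F * x) (hx2 : x * x = 1) :
    x = 1 ∨ x = J2 F * J2 F := by
  obtain ⟨h3, h4⟩ := mem_A.1 hJ
  have h5 := congrArg (fun z : GL (Fin 2) F => (z : Matrix (Fin 2) (Fin 2) F) 1 0) hS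
  simp only [gl_mul, S2, mk2_00, mk2_01, mk2_10, mk2_11] at h5
  have h6 : (x : Matrix (Fin 2) (Fin 2) F) 1 0 = 0 := by
    have h7 : (2 : F) * (x : Matrix (Fin 2) (Fin 2) F) 1 0 = 0 := by linear_combination h5
    exact (mul_eq_zero.1 h7).resolve_left h2
  have h01 : (x : Matrix (Fin 2) (Fin 2) F) 0 1 = 0 := by rw [h4, h6, neg_zero]
  have h7 := congrArg (fun z : GL (Fin 2) F => (z : Matrix (Fin 2) (Fin 2) F) 0 0) hx2
  simp only [gl_mul, gl_one, if_true, h01, zero_mul, add_zero] at h7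
  have h8 : ((x : Matrix (Fin 2) (Fin 2) F) 0 0 - 1) * (x 0 0 + 1) = 0 := by linear_combination h7
  rcases mul_eq_zero.1 h8 with h10 | h10
  · left
    have h11 : (x : Matrix (Fin 2) (Fin 2) F) 0 0 = 1 := by linear_combination h10
    apply gl_ext <;> simp [h3, h01, h6, h11]
  · right
    have h11 : (x : Matrix (Fin 2) (Fin 2) F) 0 0 = -1 := by linear_combination h10
    apply gl_ext <;> simp [J2J2, h3, h01, h6, h11]

/-- the unitary group of degree two -/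
def U2 (σ : F →+* F) : Subgroup (GL (Fin 2) F) where
  carrier := {x | adj σ (x : Matrix (Fin 2) (Fin 2) F) * (x : Matrix (Fin 2) (Fin 2) F) = 1}
  one_mem' := by
    show adj σ ((1 : GL (Fin 2) F) : Matrix (Fin 2) (Fin 2) F) * ((1 : GL (Fin 2) F) : Matrix (Fin 2) (Fin 2) F) = 1
    rw [Units.val_one, adj_one, mul_one]
  mul_mem' := by
    intro x y hx hy
    show adj σ ((x * y : GL (Fin 2) F) : Matrix (Fin 2) (Fin 2) F) * ((x * y : GL (Fin 2) F) : Matrix (Fin 2) (Fin 2) F) = 1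
    have hx' : adj σ (x : Matrix (Fin 2) (Fin 2) F) * (x : Matrix (Fin 2) (Fin 2) F) = 1 := hx
    have hy' : adj σ (y : Matrix (Fin 2) (Fin 2) F) * (y : Matrix (Fin 2) (Fin 2) F) = 1 := hy
    rw [Units.val_mul, adj_mul, mul_assoc, ← mul_assoc (adj σ (x : Matrix (Fin 2) (Fin 2) F)), hx', one_mul, hy']
  inv_mem' := by
    intro x hx
    show adj σ ((x⁻¹ : GL (Fin 2) F) : Matrix (Fin 2) (Fin 2) F) * ((x⁻¹ : GL (Fin 2) F) : Matrix (Fin 2) (Fin 2) F) = 1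
    have hx' : adj σ (x : Matrix (Fin 2) (Fin 2) F) * (x : Matrix (Fin 2) (Fin 2) F) = 1 := hx
    have h1 : (x : Matrix (Fin 2) (Fin 2) F) * ((x⁻¹ : GL (Fin 2) F) : Matrix (Fin 2) (Fin 2) F) = 1 := by
      rw [← Units.val_mul, mul_inv_cancel, Units.val_one]
    have h2 : ((x⁻¹ : GL (Fin 2) F) : Matrix (Fin 2) (Fin 2) F) = adj σ (x : Matrix (Fin 2) (Fin 2) F) := by
      calc ((x⁻¹ : GL (Fin 2) F) : Matrix (Fin 2) (Fin 2) F) = (adj σ (x : Matrix (Fin 2) (Fin 2) F) * (x : Matrix (Fin 2) (Fin 2) F)) * ((x⁻¹ : GL (Fin 2) F) : Matrix (Fin 2) (Fin 2) F) := by rw [hx', one_mul]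
        _ = _ := by rw [mul_assoc, h1, mul_one]
    have h3 := congrArg (adj σ) h1
    rw [adj_mul, adj_one] at h3
    rw [← h2] at h3
    exact h3

theorem mem_U2 {σ : F →+* F} {x : GL (Fin 2) F} : x ∈ U2 σ ↔
    σ ((x : Matrix (Fin 2) (Fin 2) F) 0 0) * x 0 0 + σ ((x : Matrix (Fin 2) (Fin 2) F) 1 0) * x 1 0 = 1 ∧
    σ ((x : Matrix (Fin 2) (Fin 2) F) 0 0) * x 0 1 + σ ((x : Matrix (Fin 2) (Fin 2) F) 1 0) * x 1 1 = 0 ∧
    σ ((x : Matrix (Fin 2) (Fin 2) F) 0 1) * x 0 0 + σ ((x : Matrix (Fin 2) (Fin 2) F) 1 1) * x 1 0 = 0 ∧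
    σ ((x : Matrix (Fin 2) (Fin 2) F) 0 1) * x 0 1 + σ ((x : Matrix (Fin 2) (Fin 2) F) 1 1) * x 1 1 = 1 := by
  have key : ∀ i j, (adj σ (x : Matrix (Fin 2) (Fin 2) F) * (x : Matrix (Fin 2) (Fin 2) F)) i j =
      σ ((x : Matrix (Fin 2) (Fin 2) F) 0 i) * x 0 j + σ ((x : Matrix (Fin 2) (Fin 2) F) 1 i) * x 1 j := by
    intro i j
    rw [Matrix.mul_apply, Fin.sum_univ_two, adj_apply, adj_apply]
  constructor
  · intro h
    have h' : adj σ (x : Matrix (Fin 2) (Fin 2) F) * (x : Matrix (Fin 2) (Fin 2) F) = 1 := h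
    have e : ∀ i j, σ ((x : Matrix (Fin 2) (Fin 2) F) 0 i) * x 0 j + σ ((x : Matrix (Fin 2) (Fin 2) F) 1 i) * x 1 j = (1 : Matrix (Fin 2) (Fin 2) F) i j := by
      intro i j; rw [← key, h']
    exact ⟨by simpa using e 0 0, by simpa using e 0 1, by simpa using e 1 0, by simpa using e 1 1⟩
  · rintro ⟨h1, h2, h3, h4⟩
    show adj σ (x : Matrix (Fin 2) (Fin 2) F) * (x : Matrix (Fin 2) (Fin 2) F) = 1
    ext i j
    rw [key]
    fin_cases i <;> fin_cases j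
    · simpa using h1
    · simpa using h2
    · simpa using h3
    · simpa using h4

theorem U2_det {σ : F →+* F} {x : GL (Fin 2) F} (hx : x ∈ U2 σ) :
    σ ((x : Matrix (Fin 2) (Fin 2) F) 0 0 * x 1 1 - x 0 1 * x 1 0) * ((x : Matrix (Fin 2) (Fin 2) F) 0 0 * x 1 1 - x 0 1 * x 1 0) = 1 := by
  have h' : adj σ (x : Matrix (Fin 2) (Fin 2) F) * (x : Matrix (Fin 2) (Fin 2) F) = 1 := hx
  have h1 := congrArg Matrix.det h'
  rw [Matrix.det_mul, det_adj, Matrix.det_one, Matrix.det_fin_two] at h1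
  exact h1

theorem U2_gram (σ : F →+* F) {x : GL (Fin 2) F} (hx : x ∈ U2 σ) : adj σ (iotaMat x) * iotaMat x = 1 := by
  obtain ⟨h1, h2, h3, h4⟩ := mem_U2.1 hx
  have h5 := U2_det hx
  have h6 := gl_det x
  ext i j
  rw [Matrix.mul_apply, Fin.sum_univ_three, adj_apply, adj_apply, adj_apply]
  fin_cases i <;> fin_cases j <;> simp [iotaMat, h1, h2, h3, h4]
  rw [map_sub, map_mul, map_mul] at h5
  rw [← _root_.mul_inv, h5, inv_one]

variable {q : ℕ} {σ : F →+* F}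

/-- the embedding into the special unitary group -/
def iotaU (hσ : ∀ x, σ x = x ^ q) (hσ2 : ∀ x, σ (σ x) = x) : U2 σ →* Cfsg.SU 3 F q :=
  ((iota : GL (Fin 2) F →* SpecialLinearGroup (Fin 3) F).comp (U2 σ).subtype).codRestrict (Cfsg.SU 3 F q)
    fun x => (mem_SU_iff σ hσ hσ2 _).2 (U2_gram σ x.2)

theorem iotaU_val (hσ : ∀ x, σ x = x ^ q) (hσ2 : ∀ x, σ (σ x) = x) (x : U2 σ) : (iotaU hσ hσ2 x : SpecialLinearGroup (Fin 3) F) = iota (x : GL (Fin 2) F) := rfl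

theorem iotaU_inj (hσ : ∀ x, σ x = x ^ q) (hσ2 : ∀ x, σ (σ x) = x) : Function.Injective (iotaU hσ hσ2) := by
  intro x y h
  apply Subtype.ext
  apply iota_inj
  exact congrArg Subtype.val h

theorem J2_U2 : J2 F ∈ U2 σ := by
  rw [mem_U2]; simp [J2]

theorem S2_U2 : S2 F ∈ U2 σ := by
  rw [mem_U2]; simp [S2]

theorem iotaU_range (h2 : (2 : F) ≠ 0) (hσ : ∀ x, σ x = x ^ q) (hσ2 : ∀ x, σ (σ x) = x) (x : Cfsg.SU 3 F q)
    (hx : x * iotaU hσ hσ2 (⟨J2 F, J2_U2⟩ * ⟨J2 F, J2_U2⟩) = iotaU hσ hσ2 (⟨J2 F, J2_U2⟩ * ⟨J2 F, J2_U2⟩) * x) :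
    ∃ y, iotaU hσ hσ2 y = x := by
  obtain ⟨y, hy⟩ := iota_range h2 (x : SpecialLinearGroup (Fin 3) F) (congrArg Subtype.val hx)
  have hyU : y ∈ U2 σ := by
    have h1 := (mem_SU_iff σ hσ hσ2 _).1 x.2
    rw [← hy] at h1
    have key : ∀ i j, (adj σ (iotaMat y) * iotaMat y) i j =
      σ (iotaMat y 0 i) * iotaMat y 0 j + σ (iotaMat y 1 i) * iotaMat y 1 j + σ (iotaMat y 2 i) * iotaMat y 2 j := by
      intro i j
      rw [Matrix.mul_apply, Fin.sum_univ_three, adj_apply, adj_apply, adj_apply]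
    have h2 : adj σ (iotaMat y) * iotaMat y = 1 := h1
    rw [h2] at key
    rw [mem_U2]
    refine ⟨?_, ?_, ?_, ?_⟩
    · have := key 0 0; simp [iotaMat] at this; exact this.symm
    · have := key 0 1; simp [iotaMat] at this; exact this.symm
    · have := key 1 0; simp [iotaMat] at this; exact this.symm
    · have := key 1 1; simp [iotaMat] at this; exact this.symm
  exact ⟨⟨y, hyU⟩, Subtype.ext hy⟩

theorem sd_U2 (h2 : (2 : F) ≠ 0) {l : F} (hl : l * σ l = 1 / 2) :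
    SD ((Subgroup.centralizer {J2 F}).subgroupOf (U2 σ)) (⟨J2 F, J2_U2⟩ : U2 σ) ⟨S2 F, S2_U2⟩ := by
  have hl0 : l ≠ 0 := by
    rintro rfl
    rw [zero_mul] at hl
    exact one_div_ne_zero h2 hl.symm
  refine (sd_gl2 h2).restrict _ _ _ ?_ ?_
  · have hd : l * l - (-l) * l ≠ 0 := by
      have : l * l - (-l) * l = 2 * (l * l) := by ring
      rw [this]; exact mul_ne_zero h2 (mul_ne_zero hl0 hl0)
    refine ⟨mk2 l (-l) l l hd, ?_, ?_, ?_⟩
    · rw [Subgroup.mem_centralizer_singleton_iff, mem_A]; exact ⟨rfl, rfl⟩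
    · rw [mem_U2]
      have hl' : σ l * l = 1 / 2 := by rw [mul_comm]; exact hl
      simp only [mk2_00, mk2_01, mk2_10, mk2_11, map_neg]
      refine ⟨?_, ?_, ?_, ?_⟩
      · rw [hl']; field_simp; norm_num
      · ring
      · ring
      · linear_combination 2 * hl' + (by field_simp : (2 : F) * (1 / 2) = 1)
    · have hss : S2 F * S2 F = 1 := by
        apply gl_ext <;> simp [gl_mul, S2, gl_one]
      have hsi : (S2 F)⁻¹ = S2 F := inv_eq_of_mul_eq_one_right hss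
      have h3 : mk2 l (-l) l l hd = J2 F * (S2 F * mk2 l (-l) l l hd * S2 F) := by
        apply gl_ext <;> simp [gl_mul, S2, J2]
      have h4 : S2 F * (mk2 l (-l) l l hd)⁻¹ * S2 F = (S2 F * mk2 l (-l) l l hd * S2 F)⁻¹ := by
        rw [_root_.mul_inv_rev, _root_.mul_inv_rev, hsi]; group
      rw [h4, mul_inv_eq_iff_eq_mul]
      exact h3
  · intro x hx hc hx2
    exact gl_cen h2 x (hc _ J2_U2).symm (hc _ S2_U2).symm hx2

end su3

end CfsgLib.Wre
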