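import Cfsg.Agent.LibWre6

set_option autoImplicit false

/-! Involutions of `SU₃` (helper1) -/

namespace CfsgLib.Wre

open Cfsg CfsgLib.Fus21 Matrix CfsgLib.SU27 Cfsg.Agent.H22

section su3

variable {F : Type*} [Field F] [Fintype F] {q : ℕ} {σ : F →+* F}

theorem adj_of_iso {n : ℕ} {G : Matrix (Fin n) (Fin n) F} (hG : ∀ x y, BH σ n (G *ᵥ x) (G *ᵥ y) = BH σ n x y) : adj σ G * G = 1 := by
  ext i j
  rw [Matrix.mul_apply, Matrix.one_apply, ← BH_single (σ := σ) i j, ← hG, BH_apply]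
  refine Finset.sum_congr rfl fun k _ => ?_
  rw [adj_apply, Matrix.mulVec_single_one, Matrix.mulVec_single_one]
  rfl

theorem su3_unit (hF : Fintype.card F = q ^ 2) (hσ : ∀ x, σ x = x ^ q) (hσ2 : ∀ x, σ (σ x) = x) (hσi : σ ≠ RingHom.id F)
    {w : Fin 3 → F} (hw : BH σ 3 w w = 1) : ∃ u : Cfsg.SU 3 F q, u.1.1 *ᵥ Pi.single 2 1 = w := by
  have hw0 : w ≠ 0 := by
    rintro rfl
    rw [map_zero] at hw
    exact zero_ne_one hw
  have he0 : (Pi.single 2 1 : Fin 3 → F) ≠ 0 := by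
    intro h
    have := congrFun h 2
    simp at this
  obtain ⟨g, hg, hgu⟩ := BH_witt (n := 3) hσ2 hσi ![(Pi.single 2 1 : Fin 3 → F)] ![w] (by
    rw [linearIndependent_unique_iff]; exact he0) (by
    rw [linearIndependent_unique_iff]; exact hw0) (by
    intro i j
    fin_cases i; fin_cases j
    show BH σ 3 (Pi.single 2 1) (Pi.single 2 1) = BH σ 3 w w
    rw [hw, BH_single, if_pos rfl])
  obtain ⟨G, hG⟩ : ∃ G : Matrix.GeneralLinearGroup (Fin 3) F, glLin G = g := ⟨glLin.symm g, MulEquiv.apply_symm_apply _ _⟩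
  have hGU : G ∈ Cfsg.GU 3 F q := by rw [mem_GU_iff hσ, hG]; exact hg
  have hGp : (G : Matrix (Fin 3) (Fin 3) F) *ᵥ (Pi.single 2 1) = w := by
    rw [← glLin_apply, hG]; exact hgu 0
  have hGadj : adj σ (G : Matrix (Fin 3) (Fin 3) F) * (G : Matrix (Fin 3) (Fin 3) F) = 1 := by
    apply adj_of_iso
    intro x y
    rw [BH_hermForm hσ, BH_hermForm hσ]
    exact hGU y x
  set d := (G : Matrix (Fin 3) (Fin 3) F).det with hd
  have hdd : σ d * d = 1 := by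
    have := congrArg Matrix.det hGadj
    rwa [Matrix.det_mul, det_adj, Matrix.det_one] at this
  have hd0 : d ≠ 0 := right_ne_zero_of_mul (by rw [hdd]; exact one_ne_zero)
  set D : Matrix (Fin 3) (Fin 3) F := Matrix.diagonal ![d⁻¹, 1, 1] with hD
  have hDdet : D.det = d⁻¹ := by
    rw [hD, Matrix.det_diagonal, Fin.prod_univ_three]; simp
  have hDadj : adj σ D * D = 1 := by
    ext i j
    rw [Matrix.mul_apply, Fin.sum_univ_three, adj_apply, adj_apply, adj_apply]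
    fin_cases i <;> fin_cases j <;> simp [hD]
    rw [← _root_.mul_inv, hdd, inv_one]
  have hdet1 : ((G : Matrix (Fin 3) (Fin 3) F) * D).det = 1 := by
    rw [Matrix.det_mul, hDdet, ← hd, mul_inv_cancel₀ hd0]
  refine ⟨⟨(⟨(G : Matrix (Fin 3) (Fin 3) F) * D, hdet1⟩ : SpecialLinearGroup (Fin 3) F), (mem_SU_iff σ hσ hσ2 _).2 ?_⟩, ?_⟩
  · show adj σ ((G : Matrix (Fin 3) (Fin 3) F) * D) * ((G : Matrix (Fin 3) (Fin 3) F) * D) = 1
    rw [adj_mul, mul_assoc, ← mul_assoc (adj σ (G : Matrix (Fin 3) (Fin 3) F)), hGadj, one_mul, hDadj]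
  · show ((G : Matrix (Fin 3) (Fin 3) F) * D) *ᵥ _ = w
    rw [← Matrix.mulVec_mulVec]
    have : D *ᵥ (Pi.single 2 1) = Pi.single 2 1 := by
      rw [hD]
      ext i
      rw [Matrix.mulVec_diagonal]
      fin_cases i <;> simp
    rw [this, hGp]

theorem SU_BH (hσ : ∀ x, σ x = x ^ q) (u : Cfsg.SU 3 F q) (x y : Fin 3 → F) : BH σ 3 (u.1.1 *ᵥ x) (u.1.1 *ᵥ y) = BH σ 3 x y := by
  rw [BH_hermForm hσ, BH_hermForm hσ]
  exact u.2 y x

theorem su3_involution (h2 : (2 : F) ≠ 0) (hF : Fintype.card F = q ^ 2) (hσ : ∀ x, σ x = x ^ q) (hσ2 : ∀ x, σ (σ x) = x) (hσi : σ ≠ RingHom.id F)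
    (x : Cfsg.SU 3 F q) (hx : x * x = 1) (hx1 : x ≠ 1) :
    ∃ g : Cfsg.SU 3 F q, g * x * g⁻¹ = iotaU hσ hσ2 (⟨J2 F, J2_U2⟩ * ⟨J2 F, J2_U2⟩) := by
  obtain ⟨g, hg⟩ := sl3_involution h2 x.1 (congrArg Subtype.val hx) (fun h => hx1 (Subtype.ext h))
  set E : SpecialLinearGroup (Fin 3) F := iota (J2 F * J2 F) with hE
  have hEz : ∀ z, E.1 *ᵥ z = -z + (2 * z 2) • Pi.single 2 1 := by
    intro z
    ext i
    rw [Matrix.mulVec, dotProduct, Fin.sum_univ_three, hE, iota_JJ, iota_JJ, iota_JJ]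
    fin_cases i <;> simp
    ring
  have h1 : x.1 * g⁻¹ = g⁻¹ * E := by
    rw [← hg]; group
  set B : Matrix (Fin 3) (Fin 3) F := (g⁻¹).1 with hB
  set B' : Matrix (Fin 3) (Fin 3) F := g.1 with hB'
  have hBB : B * B' = 1 := congrArg Subtype.val (inv_mul_cancel g)
  have hBB' : B' * B = 1 := congrArg Subtype.val (mul_inv_cancel g)
  have hXB : ∀ z, x.1.1 *ᵥ (B *ᵥ z) = -(B *ᵥ z) + (2 * z 2) • (B *ᵥ Pi.single 2 1) := by
    intro z
    have h2 : x.1.1 * B = B * E.1 := congrArg Subtype.val h1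
    rw [Matrix.mulVec_mulVec, h2, ← Matrix.mulVec_mulVec, hEz, Matrix.mulVec_add, Matrix.mulVec_neg, Matrix.mulVec_smul]
  set w₀ := B *ᵥ Pi.single 2 1 with hw₀
  have hXw : x.1.1 *ᵥ w₀ = w₀ := by
    have h3 : x.1.1 *ᵥ w₀ = -w₀ + (2 * (Pi.single 2 1 : Fin 3 → F) 2) • w₀ := hXB (Pi.single 2 1)
    rw [h3, Pi.single_eq_same, mul_one, two_smul]
    abel
  have horth : ∀ z : Fin 3 → F, z 2 = 0 → BH σ 3 w₀ (B *ᵥ z) = 0 := by
    intro z hz
    have h3 := SU_BH hσ x w₀ (B *ᵥ z)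
    rw [hXw, hXB, hz, mul_zero, zero_smul, add_zero, map_neg] at h3
    have h4 : (2 : F) * BH σ 3 w₀ (B *ᵥ z) = 0 := by linear_combination -h3
    exact (mul_eq_zero.1 h4).resolve_left h2
  have hdec : ∀ z : Fin 3 → F, BH σ 3 w₀ (B *ᵥ z) = z 2 * BH σ 3 w₀ w₀ := by
    intro z
    have h3 : z = (z - z 2 • Pi.single 2 1) + z 2 • Pi.single 2 1 := by abel
    have h4 : B *ᵥ z = B *ᵥ (z - z 2 • Pi.single 2 1) + z 2 • w₀ := by
      conv_lhs => rw [h3]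
      rw [Matrix.mulVec_add, Matrix.mulVec_smul]
    rw [h4, map_add, horth _ (by simp), zero_add, map_smul, smul_eq_mul]
  have hN0 : BH σ 3 w₀ w₀ ≠ 0 := by
    intro h0
    have h3 : w₀ = 0 := by
      apply BH_nondeg (σ := σ)
      intro y
      have h4 : y = B *ᵥ (B' *ᵥ y) := by rw [Matrix.mulVec_mulVec, hBB, Matrix.one_mulVec]
      rw [h4, hdec, h0, mul_zero]
    have h5 := congrArg (fun v => B' *ᵥ v) h3
    simp only [hw₀, Matrix.mulVec_mulVec, hBB', Matrix.one_mulVec, Matrix.mulVec_zero] at h5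
    have := congrFun h5 2
    simp at this
  obtain ⟨l, hl⟩ := CfsgLib.Herm27.exists_norm_eq σ hσi hσ2 (BH σ 3 w₀ w₀)⁻¹ (inv_ne_zero hN0) (by rw [map_inv₀, BH_symm hσ2])
  have hww : BH σ 3 (l • w₀) (l • w₀) = 1 := by
    rw [map_smul, map_smulₛₗ, LinearMap.smul_apply, smul_eq_mul, smul_eq_mul, ← mul_assoc, hl, inv_mul_cancel₀ hN0]
  obtain ⟨u, hu⟩ := su3_unit hF hσ hσ2 hσi hww
  have hl0 : σ l * BH σ 3 w₀ w₀ * l = 1 := by
    rw [mul_comm, ← mul_assoc, hl, inv_mul_cancel₀ hN0]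
  refine ⟨u⁻¹, ?_⟩
  rw [inv_inv, mul_assoc, inv_mul_eq_iff_eq_mul]
  apply Subtype.ext
  apply Subtype.ext
  show x.1.1 * u.1.1 = u.1.1 * E.1
  apply Matrix.ext_iff_mulVec.2
  intro z
  rw [← Matrix.mulVec_mulVec, ← Matrix.mulVec_mulVec, hEz, Matrix.mulVec_add, Matrix.mulVec_neg, Matrix.mulVec_smul, hu]
  -- the value of `x`
  obtain ⟨y, hy⟩ : ∃ y, u.1.1 *ᵥ z = B *ᵥ y := ⟨B' *ᵥ (u.1.1 *ᵥ z), by
    have h4 := Matrix.mulVec_mulVec (u.1.1 *ᵥ z) B B'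
    rw [hBB, Matrix.one_mulVec] at h4
    exact h4.symm⟩
  rw [hy, hXB]
  congr 1
  have h3 : BH σ 3 (l • w₀) (u.1.1 *ᵥ z) = z 2 := by
    rw [← hu, SU_BH hσ, BH_apply, Fin.sum_univ_three]
    simp
  rw [hy, map_smulₛₗ, LinearMap.smul_apply, hdec, smul_eq_mul] at h3
  rw [smul_smul]
  congr 1
  rw [← h3]
  linear_combination (-2 * y 2) * hl0

end su3

end CfsgLib.Wre
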