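import Cfsg.Agent.LibWre7

set_option autoImplicit false

/-! Simplicity data for `SU₃` (helper1) -/

namespace CfsgLib.Wre

open Cfsg CfsgLib.Fus21 Matrix CfsgLib.SU27 Cfsg.Agent.H22

section su3

variable {F : Type*} [Field F] [Fintype F] {q : ℕ} {σ : F →+* F}

theorem dg_U2 {x y : F} {h : x * y ≠ 0} (hx : x * σ x = 1) (hy : y * σ y = 1) : dg x y h ∈ U2 σ := by
  rw [mem_U2]
  refine ⟨?_, ?_, ?_, ?_⟩ <;> simp [dg]
  · rw [mul_comm]; exact hx
  · rw [mul_comm]; exact hy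

/-- the unitary matrix of eigenvectors -/
def Ml (l i : F) (h2 : (2 : F) ≠ 0) (hi : i * i = -1) (hl : l ≠ 0) : GL (Fin 2) F := Mi i h2 hi * dg l l (mul_ne_zero hl hl)

theorem Ml_U2 {l i : F} {h2 : (2 : F) ≠ 0} {hi : i * i = -1} {hl : l ≠ 0} (hl2 : l * σ l = 1 / 2) (hi2 : i * σ i = 1) : Ml l i h2 hi hl ∈ U2 σ := by
  have h3 : (2 : F) * (1 / 2) = 1 := by field_simp
  rw [mem_U2]
  refine ⟨?_, ?_, ?_, ?_⟩ <;> simp only [Ml, gl_mul, Mi, dg, mk2_00, mk2_01, mk2_10, mk2_11, one_mul, mul_zero, zero_add, add_zero, map_mul, map_neg]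
  · linear_combination hl2 + l * σ l * hi2 + hl2 + h3
  · linear_combination - l * σ l * hi2
  · linear_combination - l * σ l * hi2
  · linear_combination hl2 + l * σ l * hi2 + hl2 + h3

theorem Di_eq {l i : F} {h2 : (2 : F) ≠ 0} {hi : i * i = -1} (hl : l ≠ 0) {x y : F} {h : x * y ≠ 0} :
    Di i h2 hi x y h = Ml l i h2 hi hl * dg x y h * (Ml l i h2 hi hl)⁻¹ := by
  unfold Di Ml
  have h1 : dg l l (mul_ne_zero hl hl) * dg x y h * (dg l l (mul_ne_zero hl hl))⁻¹ = dg x y h := by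
    rw [dg_comm, mul_inv_cancel_right]
  calc Mi i h2 hi * dg x y h * (Mi i h2 hi)⁻¹ = Mi i h2 hi * (dg l l (mul_ne_zero hl hl) * dg x y h * (dg l l (mul_ne_zero hl hl))⁻¹) * (Mi i h2 hi)⁻¹ := by rw [h1]
    _ = _ := by group

theorem piM_SU (hσ : ∀ x, σ x = x ^ q) (hσ2 : ∀ x, σ (σ x) = x) : (piM : SpecialLinearGroup (Fin 3) F) ∈ Cfsg.SU 3 F q := by
  refine (mem_SU_iff σ hσ hσ2 _).2 ?_
  show adj σ (!![1, 0, 0; 0, 0, -1; 0, 1, 0] : Matrix (Fin 3) (Fin 3) F) * !![1, 0, 0; 0, 0, -1; 0, 1, 0] = 1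
  ext i j
  rw [Matrix.mul_apply, Fin.sum_univ_three, adj_apply, adj_apply, adj_apply]
  fin_cases i <;> fin_cases j <;> simp

theorem pm_one_of' {σ : F →+* F} (hno : ¬ ∃ i : F, i * i = -1 ∧ i * σ i = 1) (k : ℕ) (n : F) (hn : n * σ n = 1) (h : n ^ 2 ^ k = 1) : n = 1 ∨ n = -1 := by
  induction k generalizing n with
  | zero => left; simpa using h
  | succ k ih =>
    rw [pow_succ', pow_mul] at h
    have hn2 : n ^ 2 * σ (n ^ 2) = 1 := by
      rw [map_pow, ← mul_pow, hn, one_pow]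
    rcases ih _ hn2 h with h1 | h1
    · have h2 : (n - 1) * (n + 1) = 0 := by linear_combination h1
      rcases mul_eq_zero.1 h2 with h3 | h3
      · left; linear_combination h3
      · right; linear_combination h3
    · exact absurd ⟨n, by rw [← pow_two, h1], hn⟩ hno

theorem conj_J_U2 (h2 : (2 : F) ≠ 0) (hσ2 : ∀ x, σ (σ x) = x) {i a b : F} (hi : i * i = -1) (hi' : σ i = i) (hab : a * a + b * b = -1)
    (ha : σ a = -a) (hb : σ b = -b) (x : GL (Fin 2) F) (x00 : (x : Matrix (Fin 2) (Fin 2) F) 0 0 = a) (x01 : (x : Matrix (Fin 2) (Fin 2) F) 0 1 = b)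
    (x10 : (x : Matrix (Fin 2) (Fin 2) F) 1 0 = b) (x11 : (x : Matrix (Fin 2) (Fin 2) F) 1 1 = -a) : ∃ k ∈ U2 σ, k * J2 F * k⁻¹ = x := by
  have hi0 : i ≠ 0 := by rintro rfl; simp at hi
  have hne : ∀ z : F, σ z = z → σ z = -z → z = 0 := by
    intro z h1 h3
    have : (2 : F) * z = 0 := by linear_combination h3 - h1
    exact (mul_eq_zero.1 this).resolve_left h2
  have hb0 : b ≠ 0 := by
    intro hb0
    have h3 : (a - i) * (a + i) = 0 := by linear_combination hab - hi - b * hb0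
    rcases mul_eq_zero.1 h3 with h4 | h4
    · have h5 : a = i := by linear_combination h4
      rw [h5] at ha
      exact hi0 (hne i hi' ha)
    · have h5 : a = -i := by linear_combination h4
      rw [h5, map_neg, neg_neg, hi'] at ha
      exact hi0 (hne i hi' (hi'.trans ha.symm))
  obtain ⟨t, ht⟩ : ∃ t, t = i * a := ⟨_, rfl⟩
  have hσt : σ t = -t := by rw [ht, map_mul, hi', ha]; ring
  have htt : t * t = -(a * a) := by rw [ht]; linear_combination a * a * hi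
  have ht1 : 1 + t ≠ 0 := by
    intro h0
    have h3 : t = -1 := by linear_combination h0
    rw [h3, map_neg, map_one] at hσt
    exact h2 (by linear_combination -hσt)
  have ht1' : 1 - t ≠ 0 := by
    intro h0
    have h3 : t = 1 := by linear_combination -h0
    rw [h3, map_one] at hσt
    exact h2 (by linear_combination hσt)
  have hbb : b * b = -(1 + t) * (1 - t) := by linear_combination hab - htt
  have hit : i * t = -a := by rw [ht]; linear_combination a * hi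
  set v1 := b * (2 + t) / (2 * (1 + t)) with hv1
  set v2 := -a / 2 with hv2
  set w1 := a * b / (2 * (1 + t)) with hw1
  set w2 := (t - 2) / 2 with hw2
  have h12 : (1 + t) * 2 ≠ 0 := mul_ne_zero ht1 h2
  have h4 : (4 : F) ≠ 0 := by
    have : (4 : F) = 2 * 2 := by norm_num
    rw [this]; exact mul_ne_zero h2 h2
  have hσ1 : σ (1 + t) = 1 - t := by rw [map_add, map_one, hσt]; ring
  have hσ1' : σ (2 : F) = 2 := by rw [map_ofNat]
  have sv1 : σ v1 = -b * (2 - t) / (2 * (1 - t)) := by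
    rw [hv1, map_div₀, map_mul, map_mul, hσ1, map_add, hσ1', hσt, hb]; ring
  have sv2 : σ v2 = a / 2 := by
    rw [hv2, map_div₀, hσ1', map_neg, ha]; ring
  have sw1 : σ w1 = a * b / (2 * (1 - t)) := by
    rw [hw1, map_div₀, map_mul, map_mul, hσ1, hσ1', ha, hb]; ring
  have sw2 : σ w2 = (-t - 2) / 2 := by
    rw [hw2, map_div₀, map_sub, hσ1', hσt]
  have hdet : v1 * w2 - w1 * v2 ≠ 0 := by
    have h5 : v1 * w2 - w1 * v2 = -b / (1 + t) := by
      rw [hv1, hv2, hw1, hw2]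
      field_simp
      grind
    rw [h5]
    exact div_ne_zero (neg_ne_zero.2 hb0) ht1
  refine ⟨mk2 v1 w1 v2 w2 hdet, ?_, ?_⟩
  · rw [mem_U2]
    simp only [mk2_00, mk2_01, mk2_10, mk2_11, sv1, sv2, sw1, sw2]
    refine ⟨?_, ?_, ?_, ?_⟩
    · rw [hv1, hv2]
      field_simp
      grind
    · rw [hw1, hw2]
      field_simp
      grind
    · rw [hv1, hv2]
      field_simp
      grind
    · rw [hw1, hw2]
      field_simp
      grind
  · rw [mul_inv_eq_iff_eq_mul]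
    apply gl_ext <;> simp only [gl_mul, J2, mk2_00, mk2_01, mk2_10, mk2_11, x00, x01, x10, x11]
    · rw [hv1, hv2, hw1]
      field_simp
      grind
    · rw [hv1, hw2, hw1]
      field_simp
      grind
    · rw [hv1, hv2, hw2]
      field_simp
      grind
    · rw [hv2, hw2, hw1]
      field_simp
      grind

theorem su3_simpleData (h2 : (2 : F) ≠ 0) (hF : Fintype.card F = q ^ 2) (hσ : ∀ x, σ x = x ^ q) (hσ2 : ∀ x, σ (σ x) = x) (hσi : σ ≠ RingHom.id F)
    {l : F} (hl : l * σ l = 1 / 2) (hsq : ∃ i : F, i * i = -1) : SimpleData 2 ((sd_U2 h2 hl).P.map (iotaU hσ hσ2)) := by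
  refine (sd_U2 h2 hl).simpleData (iotaU hσ hσ2) (iotaU_inj hσ hσ2) (iotaU_range h2 hσ hσ2) (su3_involution h2 hF hσ hσ2 hσi) ?_
  rintro ⟨c, hcU⟩ hc
  set h := sd_U2 h2 hl with hh
  have hl0 : l ≠ 0 := by
    rintro rfl
    rw [zero_mul] at hl
    exact one_div_ne_zero h2 hl.symm
  obtain ⟨hcA, k, hk⟩ := hc
  have hcJ : c * J2 F = J2 F * c := by
    have := Subgroup.mem_subgroupOf.1 hcA
    rwa [Subgroup.mem_centralizer_singleton_iff] at this
  have hk' : c ^ 2 ^ k = 1 := congrArg Subtype.val hk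
  set n := ((c : Matrix (Fin 2) (Fin 2) F) 0 0 * c 1 1 - c 0 1 * c 1 0) with hn
  have hn0 : n ≠ 0 := gl_det c
  have hnk : n ^ 2 ^ k = 1 := scal_pow hcJ hk'
  have hnn : n * σ n = 1 := by rw [mul_comm]; exact U2_det hcU
  have hcs := gl_scal_eq c hcJ
  by_cases hi : ∃ i : F, i * i = -1 ∧ i * σ i = 1
  · obtain ⟨i, hi, hi2⟩ := hi
    have hDU : ∀ (x y : F) (h : x * y ≠ 0), x * σ x = 1 → y * σ y = 1 → Di i h2 hi x y h ∈ U2 σ := by
      intro x y h hx hy
      rw [Di_eq hl0]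
      exact Subgroup.mul_mem _ (Subgroup.mul_mem _ (Ml_U2 hl hi2) (dg_U2 hx hy)) (Subgroup.inv_mem _ (Ml_U2 hl hi2))
    have h11 : (1 : F) * σ 1 = 1 := by rw [map_one, mul_one]
    have hni : n⁻¹ * σ n⁻¹ = 1 := by rw [map_inv₀, ← _root_.mul_inv, hnn, inv_one]
    have hn1 : n * 1 ≠ 0 := by simpa using hn0
    have hnin : n * n⁻¹ ≠ 0 := by simp [hn0]
    have hAm : ∀ (x y : F) (h : x * y ≠ 0) (hU : Di i h2 hi x y h ∈ U2 σ), (⟨_, hU⟩ : U2 σ) ∈ (Subgroup.centralizer {J2 F}).subgroupOf (U2 σ) := by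
      intro x y h hU
      rw [Subgroup.mem_subgroupOf, Subgroup.mem_centralizer_singleton_iff]
      exact Di_J _ _ _ _ _ _
    refine ⟨⟨Di i h2 hi n 1 hn1, hDU _ _ _ hnn h11⟩, ⟨hAm _ _ _ _, k, ?_⟩, ?_, ⟨Di i h2 hi n n⁻¹ hnin, hDU _ _ _ hnn hni⟩, ⟨hAm _ _ _ _, k, ?_⟩, ?_, ?_⟩
    · apply Subtype.ext
      show Di i h2 hi n 1 hn1 ^ 2 ^ k = 1
      rw [Di_pow]
      simp only [hnk, one_pow]
      rw [Di_scal, dg_one]
    · apply Subtype.ext
      show Di i h2 hi n 1 hn1 * (S2 F * Di i h2 hi n 1 hn1 * S2 F) = c * (S2 F * c * S2 F)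
      rw [Di_S, Di_mul, hcs]
      simp only [one_mul, mul_one]
      rw [Di_scal]
    · apply Subtype.ext
      show Di i h2 hi n n⁻¹ hnin ^ 2 ^ k = 1
      rw [Di_pow]
      simp only [inv_pow, hnk, inv_one]
      rw [Di_scal, dg_one]
    · apply Subtype.ext
      show Di i h2 hi n n⁻¹ hnin * (S2 F * Di i h2 hi n n⁻¹ hnin * S2 F) = 1
      rw [Di_S, Di_mul]
      simp only [mul_inv_cancel₀ hn0, inv_mul_cancel₀ hn0]
      rw [Di_scal, dg_one]
    · refine ⟨iotaU hσ hσ2 ⟨Ml l i h2 hi hl0, Ml_U2 hl hi2⟩ * ⟨piM, piM_SU hσ hσ2⟩ * (iotaU hσ hσ2 ⟨Ml l i h2 hi hl0, Ml_U2 hl hi2⟩)⁻¹, Or.inl ?_⟩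
      apply Subtype.ext
      set M : SpecialLinearGroup (Fin 3) F := iota (Ml l i h2 hi hl0) with hM
      show M * piM * M⁻¹ * iota (Di i h2 hi n n⁻¹ hnin) * (M * piM * M⁻¹)⁻¹ = iota (Di i h2 hi n 1 hn1)
      have h3 : iota (Di i h2 hi n n⁻¹ hnin) = M * iota (dg n n⁻¹ hnin) * M⁻¹ := by
        rw [Di_eq hl0, map_mul, map_mul, map_inv]
      have h4 : iota (Di i h2 hi n 1 hn1) = M * iota (dg n 1 hn1) * M⁻¹ := by
        rw [Di_eq hl0, map_mul, map_mul, map_inv]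
      rw [h3, h4]
      calc M * piM * M⁻¹ * (M * iota (dg n n⁻¹ hnin) * M⁻¹) * (M * piM * M⁻¹)⁻¹ = M * (piM * iota (dg n n⁻¹ hnin)) * piM⁻¹ * M⁻¹ := by group
        _ = M * (iota (dg n 1 hn1) * piM) * piM⁻¹ * M⁻¹ := by rw [pi_conj n hn0]
        _ = _ := by group
  · rcases pm_one_of' hi k n hnn hnk with h1 | h1
    · refine ⟨1, h.C.one_mem, ?_, 1, h.C.one_mem, ?_, 1, Or.inl ?_⟩
      · apply Subtype.ext
        show 1 * (S2 F * 1 * S2 F) = c * (S2 F * c * S2 F)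
        have hss : S2 F * S2 F = 1 := by
          apply gl_ext <;> simp [gl_mul, S2, gl_one]
        rw [hcs, mul_one, one_mul, hss]
        apply gl_ext <;> simp [dg, ← hn, h1, gl_one]
      · rw [mul_one, one_mul, h.s2]
      · simp
    · refine ⟨⟨c, hcU⟩, ⟨hcA, k, hk⟩, rfl, ⟨J2 F, J2_U2⟩, h.JC, ?_, ?_⟩
      · rw [h.sJ, mul_inv_cancel]
      · obtain ⟨e1, e2⟩ := mem_A.1 hcJ
        obtain ⟨i, hii⟩ := hsq
        have hi' : σ i = i := by
          have h3 : (i * σ i) * (i * σ i) = 1 := by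
            have h4 : σ i * σ i = -1 := by rw [← map_mul, hii, map_neg, map_one]
            calc (i * σ i) * (i * σ i) = (i * i) * (σ i * σ i) := by ring
              _ = 1 := by rw [hii, h4]; ring
          have h5 : (i * σ i - 1) * (i * σ i + 1) = 0 := by linear_combination h3
          rcases mul_eq_zero.1 h5 with h6 | h6
          · exact absurd ⟨i, hii, by linear_combination h6⟩ hi
          · have h7 : i * σ i = -1 := by linear_combination h6
            have hi0 : i ≠ 0 := by rintro rfl; simp at hii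
            exact mul_left_cancel₀ hi0 (h7.trans hii.symm)
        obtain ⟨u1, u2, u3, u4⟩ := mem_U2.1 hcU
        rw [e1, e2] at u2
        rw [e2, e1, map_neg] at u3
        have hab : (c : Matrix (Fin 2) (Fin 2) F) 0 0 * c 0 0 + c 1 0 * c 1 0 = -1 := by
          rw [← h1, hn, e1, e2]; ring
        have ha : σ ((c : Matrix (Fin 2) (Fin 2) F) 0 0) = - c 0 0 := by
          linear_combination (-(c 0 0)) * u1 + c 1 0 * u2 + σ (c 0 0) * hab
        have hb : σ ((c : Matrix (Fin 2) (Fin 2) F) 1 0) = - c 1 0 := by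
          linear_combination (-(c 1 0)) * u1 - c 0 0 * u2 + σ (c 1 0) * hab
        obtain ⟨K, hK, hKJ⟩ := conj_J_U2 h2 hσ2 hii hi' hab ha hb (c * S2 F) (by simp [gl_mul, S2]) (by simp [gl_mul, S2, e2])
          (by simp [gl_mul, S2]) (by simp [gl_mul, S2, e1])
        refine ⟨iotaU hσ hσ2 ⟨K, hK⟩, Or.inr ?_⟩
        rw [← map_inv, ← map_mul, ← map_mul]
        congr 1
        exact Subtype.ext hKJ

end su3

end CfsgLib.Wre
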