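import Cfsg.Agent.LibFus21Simple2
import Mathlib.Tactic

set_option autoImplicit false

/-! Sylow 2-subgroups that are wreath products of quaternion groups modulo a central involution (helper1) -/

namespace CfsgLib.Wrx

open Cfsg CfsgLib.Fus21

variable {L H : Type*} [Group L] [Group H]

structure W4 (i : L × L →* H) (t : H) (z J w o : L) (s1 s2 : H) : Prop where
  inj : Function.Injective i
  t2 : t * t = 1
  tc : ∀ a b, t * i (a, b) = i (b, a) * t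
  zc : ∀ x : L, x * z = z * x
  z2 : z * z = 1
  z1 : z ≠ 1
  JJ : J * J = z
  ww : w * w = z
  comm : ∀ x y : L, x * J = J * x → y * J = J * y → x * y = y * x
  inv : ∀ x : L, x * J = J * x → w * x * w⁻¹ = x⁻¹
  L1 : ∀ x : L, x * x = 1 → x = 1 ∨ x = z
  L2 : ∀ x : L, x * x = z → ∃ g, g * x * g⁻¹ = J
  L3 : ∀ c : L, c * J = J * c → c ≠ 1 → c ≠ z → ∀ g, g * c = c * g → g * J = J * g
  L4 : ∀ c : L, c * J = J * c → c * c = z → c = J ∨ c = J⁻¹
  oJ : o * J * o⁻¹ = w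
  ow : o * w * o⁻¹ = J * w
  o3 : o * o * o = z
  H1 : ∀ h : H, h * i (z, 1) = i (z, 1) * h → ∃ a b, i (a, b) = h
  H2 : ∃ h : H, h * i (1, z) * h⁻¹ = t
  zz : ∀ h : H, h * i (z, z) = i (z, z) * h
  s12 : s1 * s2 = i (o, o)
  s1o : s1 * s1 * (s1 * s1) = 1
  s2o : s2 * s2 * (s2 * s2) = 1
  s1J : s1 * i (J, J) = i (J, J) * s1
  s1w : s1 * i (w, w) = i (J * w, J * w) * s1
  s1t : s1 * t = i (1, z) * s1
  s1z : s1 * i (1, z) = t * i (z, z) * s1
  s2w : s2 * i (w, w) = i (w, w) * s2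
  s2J : s2 * i (J, J) = i (w * J, w * J) * s2
  s2t : s2 * t = i (z, 1) * s2
  s2z : s2 * i (1, z) = t * s2

variable {i : L × L →* H} {t : H} {z J w o : L} {s1 s2 : H}

theorem W4.zi (h : W4 i t z J w o s1 s2) : z⁻¹ = z := inv_eq_of_mul_eq_one_right h.z2

theorem W4.ti (h : W4 i t z J w o s1 s2) : t⁻¹ = t := inv_eq_of_mul_eq_one_right h.t2

theorem W4.zJ (h : W4 i t z J w o s1 s2) : z * J = J * z := (h.zc J).symm

theorem W4.Jz (h : W4 i t z J w o s1 s2) : J ≠ z := by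
  intro h1
  have := h.JJ
  rw [h1, h.z2] at this
  exact h.z1 this.symm

theorem W4.J1 (h : W4 i t z J w o s1 s2) : J ≠ 1 := by
  intro h1
  have := h.JJ
  rw [h1, one_mul] at this
  exact h.z1 this.symm

theorem W4.Ji (h : W4 i t z J w o s1 s2) : J⁻¹ = J * z := by
  rw [inv_eq_iff_mul_eq_one, ← mul_assoc, h.JJ, h.z2]

theorem W4.wi (h : W4 i t z J w o s1 s2) : w⁻¹ = w * z := by
  rw [inv_eq_iff_mul_eq_one, ← mul_assoc, h.ww, h.z2]

theorem W4.wcomm (h : W4 i t z J w o s1 s2) {x : L} (hx : x * J = J * x) : w * x = x⁻¹ * w := by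
  rw [← h.inv x hx]; group

theorem W4.wcomm' (h : W4 i t z J w o s1 s2) {x : L} (hx : x * J = J * x) : x * w = w * x⁻¹ := by
  have hx' : x⁻¹ * J = J * x⁻¹ := by
    rw [inv_mul_eq_iff_eq_mul, ← mul_assoc, hx, mul_inv_cancel_right]
  rw [h.wcomm hx', inv_inv]

theorem W4.w_not (h : W4 i t z J w o s1 s2) : w * J ≠ J * w := by
  intro h1
  have h2 := h.wcomm (x := J) rfl
  rw [h1] at h2
  have h3 : J = J⁻¹ := mul_right_cancel h2
  have h4 : J * J = 1 := by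
    nth_rw 2 [h3]; exact mul_inv_cancel J
  rw [h.JJ] at h4
  exact h.z1 h4

/-- the 2-elements of the torus -/
def W4.C (h : W4 i t z J w o s1 s2) : Subgroup L where
  carrier := {a | a * J = J * a ∧ ∃ k : ℕ, a ^ 2 ^ k = 1}
  one_mem' := ⟨by simp, 0, by simp⟩
  mul_mem' := by
    rintro a b ⟨ha, k, hk⟩ ⟨hb, l, hl⟩
    refine ⟨by rw [mul_assoc, hb, ← mul_assoc, ha, mul_assoc], k + l, ?_⟩
    rw [(show Commute a b from h.comm a b ha hb).mul_pow, pow_add, pow_mul, hk, one_pow, one_mul, mul_comm (2 ^ k), pow_mul, hl, one_pow]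
  inv_mem' := by
    rintro a ⟨ha, k, hk⟩
    exact ⟨by rw [inv_mul_eq_iff_eq_mul, ← mul_assoc, ha, mul_inv_cancel_right], k, by rw [inv_pow, hk, inv_one]⟩

theorem W4.mem_C (h : W4 i t z J w o s1 s2) {a : L} : a ∈ h.C ↔ a * J = J * a ∧ ∃ k : ℕ, a ^ 2 ^ k = 1 := Iff.rfl

theorem W4.zC (h : W4 i t z J w o s1 s2) : z ∈ h.C := ⟨h.zJ, 1, by rw [pow_one, pow_two, h.z2]⟩

theorem W4.JC (h : W4 i t z J w o s1 s2) : J ∈ h.C := ⟨rfl, 2, by
  rw [show (2 : ℕ) ^ 2 = 2 * 2 by norm_num, pow_mul, pow_two, pow_two, h.JJ, h.z2]⟩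

theorem W4.wC (h : W4 i t z J w o s1 s2) {c : L} (hc : c ∈ h.C) : w * c = c⁻¹ * w := h.wcomm hc.1

theorem W4.wC' (h : W4 i t z J w o s1 s2) {c : L} (hc : c ∈ h.C) : c * w = w * c⁻¹ := h.wcomm' hc.1

/-- the quaternion group -/
def W4.Q (h : W4 i t z J w o s1 s2) : Subgroup L where
  carrier := {x | x ∈ h.C ∨ ∃ c ∈ h.C, x = c * w}
  one_mem' := Or.inl (h.C).one_mem
  mul_mem' := by
    rintro a b (ha | ⟨c, hc, rfl⟩) (hb | ⟨d, hd, rfl⟩)
    · exact Or.inl (h.C.mul_mem ha hb)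
    · right; exact ⟨a * d, h.C.mul_mem ha hd, by rw [mul_assoc]⟩
    · right
      refine ⟨c * b⁻¹, h.C.mul_mem hc (h.C.inv_mem hb), ?_⟩
      rw [mul_assoc, h.wC hb, mul_assoc]
    · left
      have : c * w * (d * w) = c * d⁻¹ * z := by
        rw [mul_assoc, ← mul_assoc w, h.wC hd, mul_assoc d⁻¹, h.ww, mul_assoc]
      rw [this]
      exact h.C.mul_mem (h.C.mul_mem hc (h.C.inv_mem hd)) h.zC
  inv_mem' := by
    rintro a (ha | ⟨c, hc, rfl⟩)
    · exact Or.inl (h.C.inv_mem ha)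
    · right
      refine ⟨c * z, h.C.mul_mem hc h.zC, ?_⟩
      rw [mul_inv_rev, h.wi, mul_assoc w, ← h.zc c⁻¹, ← mul_assoc, ← h.wC' hc, mul_assoc, mul_assoc, h.zc w]

theorem W4.mem_Q (h : W4 i t z J w o s1 s2) {x : L} : x ∈ h.Q ↔ x ∈ h.C ∨ ∃ c ∈ h.C, x = c * w := Iff.rfl

theorem W4.CQ (h : W4 i t z J w o s1 s2) : h.C ≤ h.Q := fun _ hx => Or.inl hx

theorem W4.wQ (h : W4 i t z J w o s1 s2) : w ∈ h.Q := Or.inr ⟨1, h.C.one_mem, by rw [one_mul]⟩

theorem W4.JQ (h : W4 i t z J w o s1 s2) : J ∈ h.Q := h.CQ h.JC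

theorem W4.zQ (h : W4 i t z J w o s1 s2) : z ∈ h.Q := h.CQ h.zC

theorem W4.cw_not (h : W4 i t z J w o s1 s2) {c : L} (hc : c * J = J * c) : (c * w) * J ≠ J * (c * w) := by
  intro h1
  apply h.w_not
  have h2 : c * (w * J) = c * (J * w) := by rw [← mul_assoc, h1, ← mul_assoc, ← hc, mul_assoc]
  exact mul_left_cancel h2

theorem W4.Q_C (h : W4 i t z J w o s1 s2) {x : L} (hx : x ∈ h.Q) (hxJ : x * J = J * x) : x ∈ h.C := by
  rcases hx with hx | ⟨c, hc, rfl⟩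
  · exact hx
  · exact absurd hxJ (h.cw_not hc.1)

theorem W4.cw2 (h : W4 i t z J w o s1 s2) {c : L} (hc : c ∈ h.C) : (c * w) * (c * w) = z := by
  rw [mul_assoc, ← mul_assoc w, h.wC hc, mul_assoc c⁻¹, h.ww, mul_inv_cancel_left]

theorem W4.Q_two (h : W4 i t z J w o s1 s2) {x : L} (hx : x ∈ h.Q) : ∃ k : ℕ, x ^ 2 ^ k = 1 := by
  rcases hx with ⟨-, k, hk⟩ | ⟨c, hc, rfl⟩
  · exact ⟨k, hk⟩
  · exact ⟨2, by rw [show (2 : ℕ) ^ 2 = 2 * 2 by norm_num, pow_mul, pow_two (c * w), h.cw2 hc, pow_two, h.z2]⟩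

/-- elements that normalize `Q` -/
theorem W4.norm_Q1 (h : W4 i t z J w o s1 s2) {a : L} (ha : ∀ x ∈ h.Q, a * x * a⁻¹ ∈ h.Q) (haJ : a * J = J * a) : a ∈ h.Q := by
  have h1 : a * w * a⁻¹ = (a * a) * w := by
    have haJ' : a⁻¹ * J = J * a⁻¹ := by
      rw [inv_mul_eq_iff_eq_mul, ← mul_assoc, haJ, mul_inv_cancel_right]
    rw [mul_assoc, h.wcomm haJ', inv_inv, mul_assoc]
  have h2 := ha w h.wQ
  rw [h1] at h2
  have haaJ : (a * a) * J = J * (a * a) := by rw [mul_assoc, haJ, ← mul_assoc, haJ, mul_assoc]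
  rcases h2 with h2 | ⟨c, hc, h2⟩
  · exact absurd h2.1 (h.cw_not haaJ)
  · have h3 : a * a = c := mul_right_cancel h2
    obtain ⟨hcJ, k, hk⟩ := hc
    refine h.CQ ⟨haJ, k + 1, ?_⟩
    rw [pow_succ', pow_mul, pow_two, h3, hk]

theorem W4.norm_Q2 (h : W4 i t z J w o s1 s2) {a : L} (ha : ∀ x ∈ h.Q, a * x * a⁻¹ ∈ h.Q) (haJ : a * J * a⁻¹ = J ∨ a * J * a⁻¹ = J⁻¹) : a ∈ h.Q := by
  rcases haJ with h1 | h1
  · exact h.norm_Q1 ha (mul_inv_eq_iff_eq_mul.1 h1)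
  · have h2 : a * w ∈ h.Q := by
      refine h.norm_Q1 ?_ ?_
      · intro x hx
        have : a * w * x * (a * w)⁻¹ = a * (w * x * w⁻¹) * a⁻¹ := by group
        rw [this]
        exact ha _ (h.Q.mul_mem (h.Q.mul_mem h.wQ hx) (h.Q.inv_mem h.wQ))
      · have h3 : a * J⁻¹ = J * a := by
          have := congrArg (·⁻¹) h1
          simp only [mul_inv_rev, inv_inv] at this
          rw [← mul_assoc] at this
          exact mul_inv_eq_iff_eq_mul.1 this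
        rw [mul_assoc, h.wC h.JC, ← mul_assoc, h3, mul_assoc]
    have h3 := h.Q.mul_mem h2 (h.Q.inv_mem h.wQ)
    rwa [mul_inv_cancel_right] at h3

def W4.small (h : W4 i t z J w o s1 s2) : Prop := ∀ c ∈ h.C, c = 1 ∨ c = z ∨ c = J ∨ c = J⁻¹

theorem W4.small_closure (h : W4 i t z J w o s1 s2) (hs : h.small) : h.Q ≤ Subgroup.closure {J, w} := by
  have hJ : J ∈ Subgroup.closure {J, w} := Subgroup.subset_closure (by simp)
  have hw : w ∈ Subgroup.closure {J, w} := Subgroup.subset_closure (by simp)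
  have hC : ∀ c ∈ h.C, c ∈ Subgroup.closure {J, w} := by
    intro c hc
    rcases hs c hc with rfl | rfl | rfl | rfl
    · exact Subgroup.one_mem _
    · rw [← h.JJ]; exact Subgroup.mul_mem _ hJ hJ
    · exact hJ
    · exact Subgroup.inv_mem _ hJ
  rintro x (hx | ⟨c, hc, rfl⟩)
  · exact hC x hx
  · exact Subgroup.mul_mem _ (hC c hc) hw

theorem W4.o_norm (h : W4 i t z J w o s1 s2) (hs : h.small) : ∀ x ∈ h.Q, o * x * o⁻¹ ∈ h.Q := by
  have key : Subgroup.closure {J, w} ≤ h.Q.comap (MulAut.conj o).toMonoidHom := by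
    rw [Subgroup.closure_le]
    rintro x (rfl | rfl)
    · show o * _ * o⁻¹ ∈ h.Q
      rw [h.oJ]; exact h.wQ
    · show o * _ * o⁻¹ ∈ h.Q
      rw [h.ow]; exact h.Q.mul_mem h.JQ h.wQ
  intro x hx
  exact key (h.small_closure hs hx)

theorem W4.o_norm' (h : W4 i t z J w o s1 s2) (hs : h.small) : ∀ x ∈ h.Q, o⁻¹ * x * o ∈ h.Q := by
  have e1 : o⁻¹ * w * o = J := by rw [← h.oJ]; group
  have e2 : o⁻¹ * (J * w) * o = w := by rw [← h.ow]; group
  have e3 : o⁻¹ * J * o = w * J⁻¹ := by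
    have : o⁻¹ * J * o = (o⁻¹ * (J * w) * o) * (o⁻¹ * w * o)⁻¹ := by group
    rw [this, e1, e2]
  have key : Subgroup.closure {J, w} ≤ h.Q.comap (MulAut.conj o⁻¹).toMonoidHom := by
    rw [Subgroup.closure_le]
    rintro x (rfl | rfl)
    · show o⁻¹ * _ * o⁻¹⁻¹ ∈ h.Q
      rw [inv_inv, e3]; exact h.Q.mul_mem h.wQ (h.Q.inv_mem h.JQ)
    · show o⁻¹ * _ * o⁻¹⁻¹ ∈ h.Q
      rw [inv_inv, e1]; exact h.JQ
  intro x hx
  have := key (h.small_closure hs hx)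
  rwa [Subgroup.mem_comap, show (MulAut.conj o⁻¹).toMonoidHom x = o⁻¹ * x * o⁻¹⁻¹ from rfl, inv_inv] at this

theorem W4.norm_cases (h : W4 i t z J w o s1 s2) {a : L} (ha : ∀ x ∈ h.Q, a * x * a⁻¹ ∈ h.Q) :
    a ∈ h.Q ∨ (h.small ∧ (o⁻¹ * a ∈ h.Q ∨ o⁻¹ * (o⁻¹ * a) ∈ h.Q)) := by
  by_cases hs : h.small
  · have h1 := ha J h.JQ
    have h2 : (a * J * a⁻¹) * (a * J * a⁻¹) = z := by
      have : (a * J * a⁻¹) * (a * J * a⁻¹) = a * (J * J) * a⁻¹ := by group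
      rw [this, h.JJ, h.zc, mul_inv_cancel_right]
    rcases h1 with h1 | ⟨c, hc, h1⟩
    · left
      exact h.norm_Q2 ha (h.L4 _ h1.1 h2)
    · right
      refine ⟨hs, ?_⟩
      -- `a J a⁻¹ = w ^ ±1` or `(J w) ^ ±1`
      have h4 : a * J * a⁻¹ = w ∨ a * J * a⁻¹ = w⁻¹ ∨ a * J * a⁻¹ = J * w ∨ a * J * a⁻¹ = (J * w)⁻¹ := by
        rw [h1]
        rcases hs c hc with rfl | rfl | rfl | rfl
        · left; rw [one_mul]
        · right; left; rw [h.wi, h.zc]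
        · right; right; left; rfl
        · right; right; right
          rw [mul_inv_rev, h.wC' (h.C.inv_mem h.JC), inv_inv, h.wi, h.Ji, mul_assoc w, ← h.zc (J * z), mul_assoc J, h.z2, mul_one]
      have hno : ∀ (b : L), (∀ x ∈ h.Q, b * x * b⁻¹ ∈ h.Q) → ∀ x ∈ h.Q, (o⁻¹ * b) * x * (o⁻¹ * b)⁻¹ ∈ h.Q := by
        intro b hb x hx
        have : (o⁻¹ * b) * x * (o⁻¹ * b)⁻¹ = o⁻¹ * (b * x * b⁻¹) * o := by group
        rw [this]
        exact h.o_norm' hs _ (hb x hx)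
      have e1 : o⁻¹ * w * o = J := by rw [← h.oJ]; group
      have e2 : o⁻¹ * (J * w) * o = w := by rw [← h.ow]; group
      rcases h4 with h4 | h4 | h4 | h4
      · left
        refine h.norm_Q2 (hno a ha) (Or.inl ?_)
        have : (o⁻¹ * a) * J * (o⁻¹ * a)⁻¹ = o⁻¹ * (a * J * a⁻¹) * o := by group
        rw [this, h4, e1]
      · left
        refine h.norm_Q2 (hno a ha) (Or.inr ?_)
        have : (o⁻¹ * a) * J * (o⁻¹ * a)⁻¹ = o⁻¹ * (a * J * a⁻¹) * o := by group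
        rw [this, h4, ← e1]; group
      · right
        refine h.norm_Q2 (hno _ (hno a ha)) (Or.inl ?_)
        have : (o⁻¹ * (o⁻¹ * a)) * J * (o⁻¹ * (o⁻¹ * a))⁻¹ = o⁻¹ * (o⁻¹ * (a * J * a⁻¹) * o) * o := by
          simp only [mul_inv_rev, inv_inv, mul_assoc]
        rw [this, h4, e2, e1]
      · right
        refine h.norm_Q2 (hno _ (hno a ha)) (Or.inr ?_)
        have : (o⁻¹ * (o⁻¹ * a)) * J * (o⁻¹ * (o⁻¹ * a))⁻¹ = o⁻¹ * (o⁻¹ * (a * J * a⁻¹) * o) * o := by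
          simp only [mul_inv_rev, inv_inv, mul_assoc]
        rw [this, h4]
        have e3 : o⁻¹ * (J * w)⁻¹ * o = w⁻¹ := by
          have := congrArg (·⁻¹) e2
          simp only [mul_inv_rev, inv_inv] at this
          rw [← this, mul_inv_rev]; group
        have e4 : o⁻¹ * w⁻¹ * o = J⁻¹ := by
          have := congrArg (·⁻¹) e1
          simp only [mul_inv_rev, inv_inv] at this
          rw [← this]; group
        rw [e3, e4]
  · left
    unfold W4.small at hs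
    push Not at hs
    obtain ⟨c, hc, hc1, hcz, hcJ, hcJ'⟩ := hs
    refine h.norm_Q2 ha ?_
    have h1 : a * c * a⁻¹ ∈ h.C := by
      rcases ha c (h.CQ hc) with h1 | ⟨d, hd, h1⟩
      · exact h1
      · exfalso
        have h2 : c * c = z := by
          have h3 : a * (c * c) * a⁻¹ = z := by
            have : a * (c * c) * a⁻¹ = (a * c * a⁻¹) * (a * c * a⁻¹) := by group
            rw [this, h1, h.cw2 hd]
          have h4 : c * c = a⁻¹ * (a * (c * c) * a⁻¹) * a := by group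
          rw [h4, h3, mul_assoc, ← h.zc, ← mul_assoc, inv_mul_cancel, one_mul]
        rcases h.L4 c hc.1 h2 with h3 | h3
        · exact hcJ h3
        · exact hcJ' h3
    have h2 : (a⁻¹ * J * a) * c = c * (a⁻¹ * J * a) := by
      have h3 := h1.1
      calc (a⁻¹ * J * a) * c = a⁻¹ * (J * (a * c * a⁻¹)) * a := by group
        _ = a⁻¹ * ((a * c * a⁻¹) * J) * a := by rw [h3]
        _ = _ := by group
    have h3 := h.L3 c hc.1 hc1 hcz _ h2
    have h4 : (a⁻¹ * J * a) * (a⁻¹ * J * a) = z := by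
      have : (a⁻¹ * J * a) * (a⁻¹ * J * a) = a⁻¹ * (J * J) * a := by group
      rw [this, h.JJ, mul_assoc, ← h.zc, ← mul_assoc, inv_mul_cancel, one_mul]
    rcases h.L4 _ h3 h4 with h5 | h5
    · left
      rw [mul_inv_eq_iff_eq_mul]
      have h6 := congrArg (fun x => a * x) h5
      simp only [mul_assoc, mul_inv_cancel_left] at h6
      exact h6.symm
    · right
      rw [mul_inv_eq_iff_eq_mul]
      have h6 := congrArg (fun x => a * x) h5
      simp only [mul_assoc, mul_inv_cancel_left] at h6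
      rw [eq_inv_mul_iff_mul_eq, ← mul_assoc, h6, inv_mul_cancel_right]

end CfsgLib.Wrx
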