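import Cfsg.Agent.LibWrx1

set_option autoImplicit false

/-! Sylow 2-subgroups that are wreath products modulo a central involution: the normalizer (helper1) -/

namespace CfsgLib.Wrx

open Cfsg CfsgLib.Fus21

variable {L H : Type*} [Group L] [Group H]
variable {i : L × L →* H} {t : H} {z J w o : L} {s1 s2 : H}

theorem W4.tin (h : W4 i t z J w o s1 s2) (a b : L) : i (a, b) ≠ t := by
  intro hab
  have h1 := h.tc z 1
  rw [← hab, ← map_mul, ← map_mul] at h1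
  have h2 := h.inj h1
  simp only [Prod.mk_mul_mk, Prod.mk.injEq, mul_one, one_mul] at h2
  have h3 : z * b = 1 * b := by rw [one_mul]; exact h2.2.symm
  exact h.z1 (mul_right_cancel h3)

theorem W4.tcl (h : W4 i t z J w o s1 s2) (a b : L) : t * i (a, b) * t = i (b, a) := by
  rw [h.tc, mul_assoc, h.t2, mul_one]

theorem W4.itt (h : W4 i t z J w o s1 s2) (a b c d : L) : (i (a, b) * t) * (i (c, d) * t) = i (a * d, b * c) := by
  rw [mul_assoc, ← mul_assoc t, h.tc, mul_assoc, h.t2, mul_one, ← map_mul, Prod.mk_mul_mk]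

/-- the wreath product -/
def W4.U (h : W4 i t z J w o s1 s2) : Subgroup H where
  carrier := {x | ∃ a ∈ h.Q, ∃ b ∈ h.Q, x = i (a, b) ∨ x = i (a, b) * t}
  one_mem' := ⟨1, h.Q.one_mem, 1, h.Q.one_mem, Or.inl (map_one i).symm⟩
  mul_mem' := by
    rintro x y ⟨a, ha, b, hb, h1 | h1⟩ ⟨c, hc, d, hd, h2 | h2⟩
    · exact ⟨a * c, h.Q.mul_mem ha hc, b * d, h.Q.mul_mem hb hd, Or.inl (by rw [h1, h2, ← map_mul, Prod.mk_mul_mk])⟩
    · exact ⟨a * c, h.Q.mul_mem ha hc, b * d, h.Q.mul_mem hb hd, Or.inr (by rw [h1, h2, ← mul_assoc, ← map_mul, Prod.mk_mul_mk])⟩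
    · exact ⟨a * d, h.Q.mul_mem ha hd, b * c, h.Q.mul_mem hb hc, Or.inr (by
        rw [h1, h2, mul_assoc, h.tc, ← mul_assoc, ← map_mul, Prod.mk_mul_mk])⟩
    · exact ⟨a * d, h.Q.mul_mem ha hd, b * c, h.Q.mul_mem hb hc, Or.inl (by rw [h1, h2, h.itt])⟩
  inv_mem' := by
    rintro x ⟨a, ha, b, hb, h1 | h1⟩
    · exact ⟨a⁻¹, h.Q.inv_mem ha, b⁻¹, h.Q.inv_mem hb, Or.inl (by rw [h1, ← map_inv]; rfl)⟩
    · exact ⟨b⁻¹, h.Q.inv_mem hb, a⁻¹, h.Q.inv_mem ha, Or.inr (by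
        rw [h1, mul_inv_rev, h.ti, ← map_inv]
        exact h.tc _ _)⟩

theorem W4.mem_U (h : W4 i t z J w o s1 s2) {x : H} : x ∈ h.U ↔ ∃ a ∈ h.Q, ∃ b ∈ h.Q, x = i (a, b) ∨ x = i (a, b) * t := Iff.rfl

theorem W4.tU (h : W4 i t z J w o s1 s2) : t ∈ h.U := ⟨1, h.Q.one_mem, 1, h.Q.one_mem, Or.inr (by
  rw [show ((1 : L), (1 : L)) = 1 from rfl, map_one, one_mul])⟩

theorem W4.iU (h : W4 i t z J w o s1 s2) {a b : L} (ha : a ∈ h.Q) (hb : b ∈ h.Q) : i (a, b) ∈ h.U := ⟨a, ha, b, hb, Or.inl rfl⟩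

theorem W4.iU_iff (h : W4 i t z J w o s1 s2) {a b : L} : i (a, b) ∈ h.U ↔ a ∈ h.Q ∧ b ∈ h.Q := by
  constructor
  · rintro ⟨c, hc, d, hd, h1 | h1⟩
    · have h2 := h.inj h1
      simp only [Prod.mk.injEq] at h2
      rw [h2.1, h2.2]; exact ⟨hc, hd⟩
    · exfalso
      apply h.tin (c⁻¹ * a) (d⁻¹ * b)
      have h3 : i (c⁻¹ * a, d⁻¹ * b) = (i (c, d))⁻¹ * i (a, b) := by rw [← map_inv, ← map_mul]; rfl
      rw [h3, h1, inv_mul_cancel_left]
  · rintro ⟨ha, hb⟩; exact h.iU ha hb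

theorem W4.zzU (h : W4 i t z J w o s1 s2) : i (z, z) ∈ h.U := h.iU h.zQ h.zQ

theorem W4.U_isP (h : W4 i t z J w o s1 s2) : IsPGroup 2 h.U := by
  have key : ∀ a ∈ h.Q, ∀ b ∈ h.Q, ∃ k : ℕ, i (a, b) ^ 2 ^ k = 1 := by
    intro a ha b hb
    obtain ⟨k, hk⟩ := h.Q_two ha
    obtain ⟨l, hl⟩ := h.Q_two hb
    refine ⟨k + l, ?_⟩
    rw [← map_pow, Prod.pow_mk]
    have h1 : a ^ 2 ^ (k + l) = 1 := by rw [pow_add, pow_mul, hk, one_pow]
    have h2 : b ^ 2 ^ (k + l) = 1 := by rw [pow_add, mul_comm, pow_mul, hl, one_pow]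
    rw [h1, h2]; exact map_one i
  rintro ⟨x, hx⟩
  obtain ⟨a, ha, b, hb, h1 | h1⟩ := id hx
  · obtain ⟨k, hk⟩ := key a ha b hb
    exact ⟨k, Subtype.ext (by rw [← h1] at hk; exact hk)⟩
  · obtain ⟨k, hk⟩ := key _ (h.Q.mul_mem ha hb) _ (h.Q.mul_mem hb ha)
    refine ⟨k + 1, Subtype.ext ?_⟩
    show x ^ 2 ^ (k + 1) = 1
    rw [pow_succ', pow_mul, pow_two, h1, h.itt, hk]

/-- commuting modulo the centre -/
theorem W4.norm_z (h : W4 i t z J w o s1 s2) {g : H} (hg : ∀ x ∈ h.U, g * x * g⁻¹ ∈ h.U) (hg' : ∀ x ∈ h.U, g⁻¹ * x * g ∈ h.U) :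
    g * i (z, 1) * g⁻¹ = i (z, 1) ∨ g * i (z, 1) * g⁻¹ = i (1, z) := by
  set y := g * i (z, 1) * g⁻¹ with hy
  have hyU : y ∈ h.U := hg _ (h.iU h.zQ h.Q.one_mem)
  have hzi : ∀ v ∈ h.U, i (z, 1) * v = v * i (z, 1) ∨ i (z, 1) * v = v * i (z, 1) * i (z, z) := by
    rintro v ⟨a, ha, b, hb, h1 | h1⟩
    · left
      rw [h1, ← map_mul, ← map_mul, Prod.mk_mul_mk, Prod.mk_mul_mk, h.zc, one_mul, mul_one]
    · right
      rw [h1, ← mul_assoc, ← map_mul, mul_assoc, mul_assoc, ← map_mul, h.tc, ← mul_assoc, ← map_mul, Prod.mk_mul_mk, Prod.mk_mul_mk, Prod.mk_mul_mk]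
      simp only [one_mul, h.z2, mul_one, h.zc]
  have hcom : ∀ u ∈ h.U, y * u = u * y ∨ y * u = u * y * i (z, z) := by
    intro u hu
    have hv := hg' u hu
    have hu' : u = g * (g⁻¹ * u * g) * g⁻¹ := by group
    rcases hzi _ hv with h1 | h1
    · left
      rw [hu', hy]
      calc g * i (z, 1) * g⁻¹ * (g * (g⁻¹ * u * g) * g⁻¹) = g * (i (z, 1) * (g⁻¹ * u * g)) * g⁻¹ := by group
        _ = g * ((g⁻¹ * u * g) * i (z, 1)) * g⁻¹ := by rw [h1]
        _ = _ := by group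
    · right
      have h2 : g * i (z, z) = i (z, z) * g := h.zz g
      calc y * u = g * (i (z, 1) * (g⁻¹ * u * g)) * g⁻¹ := by rw [hy]; group
        _ = g * ((g⁻¹ * u * g) * i (z, 1) * i (z, z)) * g⁻¹ := by rw [h1]
        _ = g * ((g⁻¹ * u * g) * i (z, 1)) * (i (z, z) * g⁻¹) := by group
        _ = g * ((g⁻¹ * u * g) * i (z, 1)) * (g⁻¹ * i (z, z)) := by rw [h.zz g⁻¹]
        _ = u * y * i (z, z) := by rw [hy]; group
  have hiJ1 : i (J, 1) ∈ h.U := h.iU h.JQ h.Q.one_mem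
  have hi1J : i (1, J) ∈ h.U := h.iU h.Q.one_mem h.JQ
  have hiw1 : i (w, 1) ∈ h.U := h.iU h.wQ h.Q.one_mem
  have hi1w : i (1, w) ∈ h.U := h.iU h.Q.one_mem h.wQ
  obtain ⟨a, ha, b, hb, h1 | h1⟩ := hyU
  · -- `y = i (a, b)`
    have hc1 : ∀ x : L, i (x, 1) ∈ h.U → a * x = x * a := by
      intro x hx
      rcases hcom _ hx with h2 | h2
      · rw [h1, ← map_mul, ← map_mul] at h2
        have h3 := h.inj h2
        simp only [Prod.mk_mul_mk, Prod.mk.injEq] at h3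
        exact h3.1
      · rw [h1, ← map_mul, ← map_mul, ← map_mul] at h2
        have h3 := h.inj h2
        simp only [Prod.mk_mul_mk, Prod.mk.injEq, mul_one, one_mul] at h3
        exact absurd (mul_left_cancel (h3.2.symm.trans (mul_one b).symm)) h.z1
    have hc2 : ∀ x : L, i (1, x) ∈ h.U → b * x = x * b := by
      intro x hx
      rcases hcom _ hx with h2 | h2
      · rw [h1, ← map_mul, ← map_mul] at h2
        have h3 := h.inj h2
        simp only [Prod.mk_mul_mk, Prod.mk.injEq] at h3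
        exact h3.2
      · rw [h1, ← map_mul, ← map_mul, ← map_mul] at h2
        have h3 := h.inj h2
        simp only [Prod.mk_mul_mk, Prod.mk.injEq, mul_one, one_mul] at h3
        exact absurd (mul_left_cancel (h3.1.symm.trans (mul_one a).symm)) h.z1
    have hz : ∀ x : L, x * J = J * x → x * w = w * x → x = 1 ∨ x = z := by
      intro x hxJ hxw
      apply h.L1
      have h2 := h.wcomm' hxJ
      rw [hxw] at h2
      have h3 : x = x⁻¹ := mul_left_cancel h2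
      nth_rw 2 [h3]; exact mul_inv_cancel x
    have ha' := hz a (hc1 J hiJ1) (hc1 w hiw1)
    have hb' := hz b (hc2 J hi1J) (hc2 w hi1w)
    have hne1 : y ≠ 1 := by
      intro h2
      have h3 : i (z, 1) = 1 := by
        have : i (z, 1) = g⁻¹ * y * g := by rw [hy]; group
        rw [this, h2]; group
      have h4 := h.inj (h3.trans (map_one i).symm)
      simp only [Prod.mk_eq_one] at h4
      exact h.z1 h4.1
    have hne2 : y ≠ i (z, z) := by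
      intro h2
      have h3 : i (z, 1) = i (z, z) := by
        have : i (z, 1) = g⁻¹ * y * g := by rw [hy]; group
        rw [this, h2, mul_assoc, ← h.zz, ← mul_assoc, inv_mul_cancel, one_mul]
      have h4 := h.inj h3
      simp only [Prod.mk.injEq] at h4
      exact h.z1 h4.2.symm
    rcases ha' with rfl | rfl <;> rcases hb' with rfl | rfl
    · exact absurd (h1.trans (map_one i)) hne1
    · right; exact h1
    · left; exact h1
    · exact absurd h1 hne2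
  · exfalso
    rcases hcom _ hiJ1 with h2 | h2
    · rw [h1, mul_assoc, h.tc, ← mul_assoc, ← mul_assoc, ← map_mul, ← map_mul] at h2
      have h3 := h.inj (mul_right_cancel h2)
      simp only [Prod.mk_mul_mk, Prod.mk.injEq, mul_one, one_mul] at h3
      exact h.J1 (mul_left_cancel (h3.2.trans (mul_one b).symm))
    · rw [h1, mul_assoc, h.tc, ← mul_assoc, ← mul_assoc, ← map_mul, ← map_mul, mul_assoc _ t, h.tc, ← mul_assoc, ← map_mul] at h2
      have h3 := h.inj (mul_right_cancel h2)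
      simp only [Prod.mk_mul_mk, Prod.mk.injEq, mul_one, one_mul] at h3
      exact h.Jz (mul_left_cancel h3.2)

theorem W4.norm_aux (h : W4 i t z J w o s1 s2) {a b : L} (hg : ∀ x ∈ h.U, i (a, b) * x * (i (a, b))⁻¹ ∈ h.U) :
    (∀ x ∈ h.Q, a * x * a⁻¹ ∈ h.Q) ∧ (∀ x ∈ h.Q, b * x * b⁻¹ ∈ h.Q) ∧ a * b⁻¹ ∈ h.Q := by
  refine ⟨?_, ?_, ?_⟩
  · intro x hx
    have h1 := hg _ (h.iU hx h.Q.one_mem)
    rw [← map_inv, ← map_mul, ← map_mul] at h1
    exact (h.iU_iff.1 h1).1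
  · intro x hx
    have h1 := hg _ (h.iU h.Q.one_mem hx)
    rw [← map_inv, ← map_mul, ← map_mul] at h1
    exact (h.iU_iff.1 h1).2
  · have h1 := hg _ h.tU
    rw [← map_inv, mul_assoc, show ((a, b) : L × L)⁻¹ = (a⁻¹, b⁻¹) from rfl, h.tc, ← mul_assoc, ← map_mul] at h1
    have h2 := h.U.mul_mem h1 h.tU
    rw [mul_assoc, h.t2, mul_one] at h2
    exact (h.iU_iff.1 h2).1

theorem W4.norm_i (h : W4 i t z J w o s1 s2) {a b : L} (hg : ∀ x ∈ h.U, i (a, b) * x * (i (a, b))⁻¹ ∈ h.U) (hg' : ∀ x ∈ h.U, (i (a, b))⁻¹ * x * i (a, b) ∈ h.U) :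
    i (a, b) ∈ h.U ∨ (h.small ∧ ∃ u ∈ h.U, i (a, b) = i (o, o) * u ∨ i (a, b) = i (o, o) * i (o, o) * u) := by
  obtain ⟨ha, hb, hab⟩ := h.norm_aux hg
  obtain ⟨ha', hb', -⟩ := h.norm_aux (a := a⁻¹) (b := b⁻¹) (by
    intro x hx
    have h1 : i (a⁻¹, b⁻¹) = (i (a, b))⁻¹ := by rw [← map_inv]; rfl
    rw [h1, inv_inv]; exact hg' x hx)
  -- `a⁻¹ b ∈ Q`
  have h1 : a⁻¹ * b ∈ h.Q := by
    have h2 := ha' _ (h.Q.inv_mem hab)
    rw [mul_inv_rev, inv_inv, inv_inv] at h2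
    have h3 : a⁻¹ * (b * a⁻¹) * a = a⁻¹ * b := by group
    rwa [h3] at h2
  have h2 : i (a, b) = i (a, a) * i (1, a⁻¹ * b) := by
    rw [← map_mul, Prod.mk_mul_mk, mul_one, mul_inv_cancel_left]
  have h3 : i (1, a⁻¹ * b) ∈ h.U := h.iU h.Q.one_mem h1
  rcases h.norm_cases ha with h4 | ⟨hs, h4 | h4⟩
  · left
    rw [h2]
    exact h.U.mul_mem (h.iU h4 h4) h3
  · right
    refine ⟨hs, i (o⁻¹ * a, o⁻¹ * a) * i (1, a⁻¹ * b), h.U.mul_mem (h.iU h4 h4) h3, Or.inl ?_⟩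
    rw [h2, ← mul_assoc, ← map_mul i (o, o), Prod.mk_mul_mk, mul_inv_cancel_left]
  · right
    refine ⟨hs, i (o⁻¹ * (o⁻¹ * a), o⁻¹ * (o⁻¹ * a)) * i (1, a⁻¹ * b), h.U.mul_mem (h.iU h4 h4) h3, Or.inr ?_⟩
    rw [h2, ← mul_assoc, mul_assoc (i (o, o)), ← map_mul i (o, o), Prod.mk_mul_mk, mul_inv_cancel_left, ← map_mul i (o, o), Prod.mk_mul_mk, mul_inv_cancel_left]

theorem W4.norm_U (h : W4 i t z J w o s1 s2) {g : H} (hg : ∀ x ∈ h.U, g * x * g⁻¹ ∈ h.U) (hg' : ∀ x ∈ h.U, g⁻¹ * x * g ∈ h.U) :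
    g ∈ h.U ∨ (h.small ∧ ∃ v ∈ h.U, ∃ u ∈ h.U, g = v * (i (o, o) * u) ∨ g = v * (i (o, o) * i (o, o) * u)) := by
  rcases h.norm_z hg hg' with h1 | h1
  · obtain ⟨a, b, hab⟩ := h.H1 g (mul_inv_eq_iff_eq_mul.1 h1)
    rw [← hab] at hg hg' ⊢
    rcases h.norm_i hg hg' with h2 | ⟨hs, u, hu, h2⟩
    · exact Or.inl h2
    · right
      refine ⟨hs, 1, h.U.one_mem, u, hu, ?_⟩
      rw [one_mul, one_mul]; exact h2
  · have h2 : (t * g) * i (z, 1) = i (z, 1) * (t * g) := by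
      rw [mul_assoc, mul_inv_eq_iff_eq_mul.1 h1, ← mul_assoc, h.tc, mul_assoc]
    obtain ⟨a, b, hab⟩ := h.H1 _ h2
    have hg2 : ∀ x ∈ h.U, (t * g) * x * (t * g)⁻¹ ∈ h.U := by
      intro x hx
      have : (t * g) * x * (t * g)⁻¹ = t * (g * x * g⁻¹) * t⁻¹ := by group
      rw [this]
      exact h.U.mul_mem (h.U.mul_mem h.tU (hg x hx)) (h.U.inv_mem h.tU)
    have hg2' : ∀ x ∈ h.U, (t * g)⁻¹ * x * (t * g) ∈ h.U := by
      intro x hx
      have : (t * g)⁻¹ * x * (t * g) = g⁻¹ * (t⁻¹ * x * t) * g := by group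
      rw [this]
      exact hg' _ (h.U.mul_mem (h.U.mul_mem (h.U.inv_mem h.tU) hx) h.tU)
    rw [← hab] at hg2 hg2'
    have hgt : g = t * i (a, b) := by rw [hab, ← mul_assoc, h.t2, one_mul]
    rcases h.norm_i hg2 hg2' with h2 | ⟨hs, u, hu, h2⟩
    · left; rw [hgt]; exact h.U.mul_mem h.tU h2
    · right
      refine ⟨hs, t, h.tU, u, hu, ?_⟩
      rcases h2 with h2 | h2
      · left; rw [hgt, h2]
      · right; rw [hgt, h2]

theorem W4.o_U (h : W4 i t z J w o s1 s2) (hs : h.small) : ∀ x ∈ h.U, i (o, o) * x * (i (o, o))⁻¹ ∈ h.U := by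
  rintro x ⟨a, ha, b, hb, h1 | h1⟩
  · rw [h1, ← map_inv, ← map_mul, ← map_mul]
    exact h.iU (h.o_norm hs a ha) (h.o_norm hs b hb)
  · have h2 : i (o, o) * (i (a, b) * t) * (i (o, o))⁻¹ = (i (o, o) * i (a, b) * (i (o, o))⁻¹) * t := by
      rw [mul_assoc, mul_assoc (i (a, b)), ← map_inv, show ((o, o) : L × L)⁻¹ = (o⁻¹, o⁻¹) from rfl, h.tc]; group
    rw [h1, h2, ← map_inv, ← map_mul, ← map_mul]
    exact h.U.mul_mem (h.iU (h.o_norm hs a ha) (h.o_norm hs b hb)) h.tU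

theorem W4.o_U' (h : W4 i t z J w o s1 s2) (hs : h.small) : ∀ x ∈ h.U, (i (o, o))⁻¹ * x * i (o, o) ∈ h.U := by
  rintro x ⟨a, ha, b, hb, h1 | h1⟩
  · rw [h1, ← map_inv, ← map_mul, ← map_mul]
    exact h.iU (h.o_norm' hs a ha) (h.o_norm' hs b hb)
  · have h2 : (i (o, o))⁻¹ * (i (a, b) * t) * i (o, o) = ((i (o, o))⁻¹ * i (a, b) * i (o, o)) * t := by
      rw [mul_assoc, mul_assoc (i (a, b)), h.tc]; group
    rw [h1, h2, ← map_inv, ← map_mul, ← map_mul]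
    exact h.U.mul_mem (h.iU (h.o_norm' hs a ha) (h.o_norm' hs b hb)) h.tU

/-- the cube of a normalizing element -/
theorem W4.cube (h : W4 i t z J w o s1 s2) {g : H} (hg : ∀ x ∈ h.U, g * x * g⁻¹ ∈ h.U) (hg' : ∀ x ∈ h.U, g⁻¹ * x * g ∈ h.U) : g ^ 3 ∈ h.U := by
  have hO3 : i (o, o) * i (o, o) * i (o, o) = i (z, z) := by
    rw [← map_mul, ← map_mul, Prod.mk_mul_mk, Prod.mk_mul_mk, h.o3]
  rcases h.norm_U hg hg' with h1 | ⟨hs, v, hv, u, hu, h1⟩
  · exact h.U.pow_mem h1 3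
  · set O := i (o, o) with hO
    have key : ∀ p : H, (∀ x ∈ h.U, p⁻¹ * x * p ∈ h.U) → ∀ x ∈ h.U, ∀ n : ℕ, ∃ y ∈ h.U, (p * x) ^ n = p ^ n * y := by
      intro p hp x hx n
      have hpn : ∀ n : ℕ, ∀ y ∈ h.U, (p ^ n)⁻¹ * y * p ^ n ∈ h.U := by
        intro n
        induction n with
        | zero => intro y hy; simpa using hy
        | succ n ih =>
          intro y hy
          have : (p ^ (n + 1))⁻¹ * y * p ^ (n + 1) = p⁻¹ * ((p ^ n)⁻¹ * y * p ^ n) * p := by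
            rw [pow_succ]; group
          rw [this]
          exact hp _ (ih y hy)
      induction n with
      | zero => exact ⟨1, h.U.one_mem, by simp⟩
      | succ n ih =>
        obtain ⟨y, hy, hyn⟩ := ih
        refine ⟨p⁻¹ * y * p * x, h.U.mul_mem (hp y hy) hx, ?_⟩
        rw [pow_succ, hyn, pow_succ]; group
    rcases h1 with h1 | h1
    · have h2 : g = O * ((O⁻¹ * v * O) * u) := by rw [h1]; group
      obtain ⟨y, hy, h3⟩ := key O (h.o_U' hs) _ (h.U.mul_mem (h.o_U' hs v hv) hu) 3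
      rw [h2, h3]
      refine h.U.mul_mem ?_ hy
      rw [pow_succ, pow_two, hO3]; exact h.zzU
    · have h2 : g = (O * O) * (((O * O)⁻¹ * v * (O * O)) * u) := by rw [h1]; group
      have hOO : ∀ x ∈ h.U, (O * O)⁻¹ * x * (O * O) ∈ h.U := by
        intro x hx
        have : (O * O)⁻¹ * x * (O * O) = O⁻¹ * (O⁻¹ * x * O) * O := by
          simp only [mul_inv_rev, mul_assoc]
        rw [this]; exact h.o_U' hs _ (h.o_U' hs x hx)
      obtain ⟨y, hy, h3⟩ := key (O * O) hOO _ (h.U.mul_mem (hOO v hv) hu) 3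
      rw [h2, h3]
      refine h.U.mul_mem ?_ hy
      have h4 : (O * O) ^ 3 = (O * O * O) * (O * O * O) := by rw [pow_succ, pow_two]; simp only [mul_assoc]
      rw [h4, hO3]; exact h.U.mul_mem h.zzU h.zzU

end CfsgLib.Wrx
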