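import Cfsg.Agent.LibWrx2

set_option autoImplicit false

/-! Sylow 2-subgroups that are wreath products modulo a central involution: strong closure (helper1) -/

namespace CfsgLib.Wrx

open Cfsg CfsgLib.Fus21

variable {L H : Type*} [Group L] [Group H]
variable {i : L × L →* H} {t : H} {z J w o : L} {s1 s2 : H}

theorem W4.conj_order4 (h : W4 i t z J w o s1 s2) {a b c d : L} (ha : a * a = z) (hb : b * b = z) (hc : c * c = z) (hd : d * d = z) :
    ∃ g : H, g * i (a, b) * g⁻¹ = i (c, d) := by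
  obtain ⟨x1, h1⟩ := h.L2 a ha
  obtain ⟨x2, h2⟩ := h.L2 b hb
  obtain ⟨x3, h3⟩ := h.L2 c hc
  obtain ⟨x4, h4⟩ := h.L2 d hd
  refine ⟨i (x3⁻¹ * x1, x4⁻¹ * x2), ?_⟩
  rw [← map_inv, ← map_mul, ← map_mul]
  congr 1
  have e1 : x3⁻¹ * x1 * a * (x3⁻¹ * x1)⁻¹ = c := by
    have : x3⁻¹ * x1 * a * (x3⁻¹ * x1)⁻¹ = x3⁻¹ * (x1 * a * x1⁻¹) * x3 := by group
    rw [this, h1, ← h3]; group
  have e2 : x4⁻¹ * x2 * b * (x4⁻¹ * x2)⁻¹ = d := by
    have : x4⁻¹ * x2 * b * (x4⁻¹ * x2)⁻¹ = x4⁻¹ * (x2 * b * x2⁻¹) * x4 := by group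
    rw [this, h2, ← h4]; group
  exact Prod.ext e1 e2

theorem W4.izi (h : W4 i t z J w o s1 s2) : i (1, z) * i (z, z) = i (z, 1) := by
  rw [← map_mul, Prod.mk_mul_mk, one_mul, h.z2]

/-- the element `i (1,z) t` is conjugate into the base -/
theorem W4.conj_r (h : W4 i t z J w o s1 s2) : ∃ (g : H) (c d : L), c * c = z ∧ d * d = z ∧ g * (i (1, z) * t) * g⁻¹ = i (c, d) := by
  obtain ⟨k0, hk0⟩ := h.H2
  set τ := i (J, J⁻¹) * t with hτ
  have hτ1 : τ = i (J, 1) * t * (i (J, 1))⁻¹ := by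
    rw [← map_inv, mul_assoc, show ((J, 1) : L × L)⁻¹ = (J⁻¹, 1) from by rw [Prod.inv_mk, inv_one], h.tc, ← mul_assoc, ← map_mul, Prod.mk_mul_mk, mul_one, one_mul]
  set k := k0⁻¹ * (i (J, 1))⁻¹ with hk
  have hkτ : k * τ * k⁻¹ = i (1, z) := by
    have : k * τ * k⁻¹ = k0⁻¹ * t * k0 := by rw [hτ1, hk]; group
    rw [this, ← hk0]; group
  set m := i (J⁻¹, J⁻¹) with hm
  have hr : i (1, z) * t = τ * m := by
    rw [hτ, hm, mul_assoc, h.tc, ← mul_assoc, ← map_mul, Prod.mk_mul_mk, mul_inv_cancel]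
    congr 2
    rw [Prod.mk.injEq]
    refine ⟨rfl, ?_⟩
    rw [← mul_inv_rev, h.JJ, h.zi]
  have hmτ : m * τ = τ * m := by
    have h1 : m * τ = i (1, J⁻¹ * J⁻¹) * t := by
      rw [hτ, hm, ← mul_assoc, ← map_mul, Prod.mk_mul_mk, inv_mul_cancel]
    have h2 : τ * m = i (1, J⁻¹ * J⁻¹) * t := by
      rw [hτ, hm, mul_assoc, h.tc, ← mul_assoc, ← map_mul, Prod.mk_mul_mk, mul_inv_cancel]
    rw [h1, h2]
  set m' := k * m * k⁻¹ with hm'
  have hc1 : m' * i (1, z) = i (1, z) * m' := by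
    rw [← hkτ, hm']
    calc k * m * k⁻¹ * (k * τ * k⁻¹) = k * (m * τ) * k⁻¹ := by group
      _ = k * (τ * m) * k⁻¹ := by rw [hmτ]
      _ = _ := by group
  have hc2 : m' * i (z, 1) = i (z, 1) * m' := by
    rw [← h.izi, ← mul_assoc, hc1, mul_assoc, h.zz, ← mul_assoc]
  obtain ⟨c, d, hcd⟩ := h.H1 m' hc2
  have hmm : m' * m' = i (z, z) := by
    have h1 : m' * m' = k * (m * m) * k⁻¹ := by rw [hm']; group
    have h2 : m * m = i (z, z) := by
      rw [hm, ← map_mul, Prod.mk_mul_mk, ← mul_inv_rev, h.JJ, h.zi]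
    rw [h1, h2, h.zz k, mul_inv_cancel_right]
  rw [← hcd, ← map_mul, Prod.mk_mul_mk] at hmm
  have h3 := h.inj hmm
  simp only [Prod.mk.injEq] at h3
  refine ⟨k, c, z * d, h3.1, ?_, ?_⟩
  · have : z * d * (z * d) = (z * z) * (d * d) := by
      calc z * d * (z * d) = z * (d * z) * d := by simp only [mul_assoc]
        _ = z * (z * d) * d := by rw [h.zc d]
        _ = _ := by simp only [mul_assoc]
    rw [this, h.z2, one_mul, h3.2]
  · rw [hr]
    have h4 : k * (τ * m) * k⁻¹ = (k * τ * k⁻¹) * m' := by rw [hm']; group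
    rw [h4, hkτ, ← hcd, ← map_mul, Prod.mk_mul_mk, one_mul]

theorem W4.scl_aux (h : W4 i t z J w o s1 s2) {T : Subgroup H} (hTU : T ≤ h.U) (hzz : i (z, z) ∈ T)
    (hT : ∀ g x : H, x ∈ T → g * x * g⁻¹ ∈ h.U → g * x * g⁻¹ ∈ T) {x : H} (hx : x ∈ T) (hx1 : x ≠ 1) (hxz : x ≠ i (z, z))
    (hx2 : x * x = 1 ∨ x * x = i (z, z)) : h.U ≤ T := by
  obtain ⟨k0, hk0⟩ := h.H2
  have h4 : ∀ {g y : H}, y ∈ T → ∀ {c d : L}, c ∈ h.Q → d ∈ h.Q → g * y * g⁻¹ = i (c, d) → i (c, d) ∈ T := by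
    intro g y hy c d hc hd hg
    rw [← hg]; exact hT g y hy (by rw [hg]; exact h.iU hc hd)
  have hJi : J⁻¹ * J⁻¹ = z := by rw [← mul_inv_rev, h.JJ, h.zi]
  -- order 4 elements
  have hord : ∀ {a b c d : L}, a * a = z → b * b = z → i (a, b) ∈ T → c * c = z → d * d = z → c ∈ h.Q → d ∈ h.Q → i (c, d) ∈ T := by
    intro a b c d ha hb hab hc hd hcQ hdQ
    obtain ⟨g, hg⟩ := h.conj_order4 ha hb hc hd
    exact h4 hab hcQ hdQ hg
  have step1 : i (J, J) ∈ T → i (z, 1) ∈ T := by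
    intro h1
    have h2 := hord h.JJ h.JJ h1 h.JJ hJi h.JQ (h.Q.inv_mem h.JQ)
    have h3 := T.mul_mem h1 h2
    rwa [← map_mul, Prod.mk_mul_mk, h.JJ, mul_inv_cancel] at h3
  have step2 : t ∈ T → i (z, 1) ∈ T := by
    intro h1
    have h2 : i (1, z) ∈ T := h4 (g := k0⁻¹) h1 h.Q.one_mem h.zQ (by rw [← hk0]; group)
    rw [← h.izi]; exact T.mul_mem h2 hzz
  have hz1 : i (z, 1) ∈ T := by
    obtain ⟨a, ha, b, hb, h1 | h1⟩ := hTU hx
    · rw [h1, ← map_mul, Prod.mk_mul_mk] at hx2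
      rcases hx2 with h2 | h2
      · have h3 := h.inj (h2.trans (map_one i).symm)
        simp only [Prod.mk_eq_one] at h3
        rcases h.L1 a h3.1 with rfl | rfl <;> rcases h.L1 b h3.2 with rfl | rfl
        · exact absurd (h1.trans (map_one i)) hx1
        · rw [← h.izi, ← h1]; exact T.mul_mem hx hzz
        · rw [← h1]; exact hx
        · exact absurd h1 hxz
      · have h3 := h.inj h2
        simp only [Prod.mk.injEq] at h3
        rw [h1] at hx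
        exact step1 (hord h3.1 h3.2 hx h.JJ h.JJ h.JQ h.JQ)
    · rw [h1, h.itt] at hx2
      have hxa : ∀ s : L, b = s * a⁻¹ → x = i (a, 1) * (i (1, s) * t) * (i (a, 1))⁻¹ := by
        intro s hs
        rw [h1, ← map_inv, mul_assoc, mul_assoc, show ((a, 1) : L × L)⁻¹ = (a⁻¹, 1) from by rw [Prod.inv_mk, inv_one], h.tc,
          ← mul_assoc (i (1, s)), ← map_mul, ← mul_assoc, ← map_mul, Prod.mk_mul_mk, Prod.mk_mul_mk, hs, mul_one, one_mul, mul_one]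
      rcases hx2 with h2 | h2
      · have h3 := h.inj (h2.trans (map_one i).symm)
        simp only [Prod.mk_eq_one] at h3
        apply step2
        have h5 := hxa 1 (by rw [one_mul]; exact eq_inv_of_mul_eq_one_right h3.1)
        have h6 := hT (i (a, 1))⁻¹ x hx (by
          rw [inv_inv]
          exact h.U.mul_mem (h.U.mul_mem (h.U.inv_mem (h.iU ha h.Q.one_mem)) (hTU hx)) (h.iU ha h.Q.one_mem))
        have h7 : (i (a, 1))⁻¹ * x * (i (a, 1))⁻¹⁻¹ = t := by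
          rw [h5, show ((1 : L), (1 : L)) = 1 from rfl, map_one]; group
        rwa [h7] at h6
      · have h3 := h.inj h2
        simp only [Prod.mk.injEq] at h3
        apply step1
        have h5 := hxa z (by rw [← h3.2, mul_inv_cancel_right])
        obtain ⟨g, c, d, hc, hd, hg⟩ := h.conj_r
        obtain ⟨g', hg'⟩ := h.conj_order4 hc hd h.JJ h.JJ
        refine h4 (g := g' * g * (i (a, 1))⁻¹) hx h.JQ h.JQ ?_
        rw [← hg', ← hg, h5]; group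
  have h1z : i (1, z) ∈ T := by
    have h1 := T.mul_mem hz1 hzz
    rwa [← map_mul, Prod.mk_mul_mk, h.z2, one_mul] at h1
  have ht : t ∈ T := by
    rw [← hk0]
    exact hT _ _ h1z (by rw [hk0]; exact h.tU)
  have hJJi : i (J, J⁻¹) ∈ T := by
    have h1 := hT (i (J, 1)) t ht (h.U.mul_mem (h.U.mul_mem (h.iU h.JQ h.Q.one_mem) h.tU) (h.U.inv_mem (h.iU h.JQ h.Q.one_mem)))
    have h2 : i (J, 1) * t * (i (J, 1))⁻¹ = i (J, J⁻¹) * t := by
      rw [← map_inv, mul_assoc, show ((J, 1) : L × L)⁻¹ = (J⁻¹, 1) from by rw [Prod.inv_mk, inv_one], h.tc, ← mul_assoc, ← map_mul, Prod.mk_mul_mk, mul_one, one_mul]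
    rw [h2] at h1
    have h3 := T.mul_mem h1 ht
    rwa [mul_assoc, h.t2, mul_one] at h3
  have hall : ∀ {c d : L}, c * c = z → d * d = z → c ∈ h.Q → d ∈ h.Q → i (c, d) ∈ T := fun hc hd hcQ hdQ => hord h.JJ hJi hJJi hc hd hcQ hdQ
  have hwi : w⁻¹ * w⁻¹ = z := by rw [← mul_inv_rev, h.ww, h.zi]
  have hx1 : ∀ x ∈ h.Q, i (x, 1) ∈ T := by
    rintro x (hx | ⟨c, hc, rfl⟩)
    · have h1 := T.mul_mem (hall (h.cw2 hx) h.JJ (h.Q.mul_mem (h.CQ hx) h.wQ) h.JQ) (hall hwi hJi (h.Q.inv_mem h.wQ) (h.Q.inv_mem h.JQ))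
      rwa [← map_mul, Prod.mk_mul_mk, mul_inv_cancel_right, mul_inv_cancel] at h1
    · have hJc : J⁻¹ * c ∈ h.C := h.C.mul_mem (h.C.inv_mem h.JC) hc
      have h1 := T.mul_mem (hall h.JJ h.JJ h.JQ h.JQ) (hall (h.cw2 hJc) hJi (h.Q.mul_mem (h.CQ hJc) h.wQ) (h.Q.inv_mem h.JQ))
      rwa [← map_mul, Prod.mk_mul_mk, mul_inv_cancel, mul_assoc, mul_inv_cancel_left] at h1
  have hab : ∀ a ∈ h.Q, ∀ b ∈ h.Q, i (a, b) ∈ T := by
    intro a ha b hb
    have h1 : i (a, b) = i (a, 1) * (t * i (b, 1) * t) := by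
      rw [h.tcl, ← map_mul, Prod.mk_mul_mk, mul_one, one_mul]
    rw [h1]
    exact T.mul_mem (hx1 a ha) (T.mul_mem (T.mul_mem ht (hx1 b hb)) ht)
  rintro x ⟨a, ha, b, hb, h1 | h1⟩
  · rw [h1]; exact hab a ha b hb
  · rw [h1]; exact T.mul_mem (hab a ha b hb) ht

end CfsgLib.Wrx
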