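import Cfsg.Agent.LibWrx3

set_option autoImplicit false

/-! Sylow 2-subgroups that are wreath products modulo a central involution: simplicity data (helper1) -/

namespace CfsgLib.Wrx

open Cfsg CfsgLib.Fus21

variable {L H : Type*} [Group L] [Group H]
variable {i : L × L →* H} {t : H} {z J w o : L} {s1 s2 : H}

/-- the extraspecial group -/
def W4.E (_ : W4 i t z J w o s1 s2) : Subgroup H := Subgroup.closure {i (J, J), i (w, w), i (1, z), t}

theorem W4.EJ (h : W4 i t z J w o s1 s2) : i (J, J) ∈ h.E := Subgroup.subset_closure (by simp)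
theorem W4.Ew (h : W4 i t z J w o s1 s2) : i (w, w) ∈ h.E := Subgroup.subset_closure (by simp)
theorem W4.Ez (h : W4 i t z J w o s1 s2) : i (1, z) ∈ h.E := Subgroup.subset_closure (by simp)
theorem W4.Et (h : W4 i t z J w o s1 s2) : t ∈ h.E := Subgroup.subset_closure (by simp)

theorem W4.Ezz (h : W4 i t z J w o s1 s2) : i (z, z) ∈ h.E := by
  have := h.E.mul_mem h.EJ h.EJ
  rwa [← map_mul, Prod.mk_mul_mk, h.JJ] at this

theorem W4.E_le (h : W4 i t z J w o s1 s2) : h.E ≤ h.U := by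
  rw [W4.E, Subgroup.closure_le]
  rintro x (rfl | rfl | rfl | rfl)
  · exact h.iU h.JQ h.JQ
  · exact h.iU h.wQ h.wQ
  · exact h.iU h.Q.one_mem h.zQ
  · exact h.tU

theorem W4.E_conj (h : W4 i t z J w o s1 s2) {g : H} (hJ : g * i (J, J) * g⁻¹ ∈ h.E) (hw : g * i (w, w) * g⁻¹ ∈ h.E)
    (hz : g * i (1, z) * g⁻¹ ∈ h.E) (ht : g * t * g⁻¹ ∈ h.E) : ∀ x ∈ h.E, g * x * g⁻¹ ∈ h.E := by
  have key : h.E ≤ h.E.comap (MulAut.conj g).toMonoidHom := by
    conv_lhs => rw [W4.E]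
    rw [Subgroup.closure_le]
    rintro x (rfl | rfl | rfl | rfl)
    · exact hJ
    · exact hw
    · exact hz
    · exact ht
  intro x hx
  exact key hx

theorem W4.E_s1 (h : W4 i t z J w o s1 s2) : ∀ x ∈ h.E, s1 * x * s1⁻¹ ∈ h.E := by
  apply h.E_conj
  · rw [h.s1J, mul_inv_cancel_right]; exact h.EJ
  · rw [h.s1w, mul_inv_cancel_right]
    have := h.E.mul_mem h.EJ h.Ew
    rwa [← map_mul, Prod.mk_mul_mk] at this
  · rw [h.s1z, mul_inv_cancel_right]; exact h.E.mul_mem h.Et h.Ezz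
  · rw [h.s1t, mul_inv_cancel_right]; exact h.Ez

theorem W4.E_s2 (h : W4 i t z J w o s1 s2) : ∀ x ∈ h.E, s2 * x * s2⁻¹ ∈ h.E := by
  apply h.E_conj
  · rw [h.s2J, mul_inv_cancel_right]
    have := h.E.mul_mem h.Ew h.EJ
    rwa [← map_mul, Prod.mk_mul_mk] at this
  · rw [h.s2w, mul_inv_cancel_right]; exact h.Ew
  · rw [h.s2z, mul_inv_cancel_right]; exact h.Et
  · rw [h.s2t, mul_inv_cancel_right, ← h.izi]; exact h.E.mul_mem h.Ez h.Ezz

/-- squares in the small case -/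
theorem W4.small_sq (h : W4 i t z J w o s1 s2) (hs : h.small) {x : L} (hx : x ∈ h.C) : x * x = 1 ∨ x * x = z := by
  rcases hs x hx with rfl | rfl | rfl | rfl
  · left; rw [one_mul]
  · left; exact h.z2
  · right; exact h.JJ
  · right; rw [← mul_inv_rev, h.JJ, h.zi]

theorem W4.small_inv (h : W4 i t z J w o s1 s2) (hs : h.small) {x : L} (hx : x ∈ h.Q) : x⁻¹ = x ∨ x⁻¹ = x * z := by
  have h1 : x * x = 1 ∨ x * x = z := by
    rcases hx with hx | ⟨c, hc, rfl⟩
    · exact h.small_sq hs hx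
    · right; exact h.cw2 hc
  rcases h1 with h1 | h1
  · left; exact inv_eq_of_mul_eq_one_right h1
  · right
    rw [inv_eq_iff_mul_eq_one, ← mul_assoc, h1, h.z2]

theorem W4.diag_E (h : W4 i t z J w o s1 s2) (hs : h.small) {x : L} (hx : x ∈ h.Q) : i (x, x) ∈ h.E := by
  have key : Subgroup.closure {J, w} ≤ h.E.comap (i.comp (MonoidHom.prod (MonoidHom.id L) (MonoidHom.id L))) := by
    rw [Subgroup.closure_le]
    rintro y (rfl | rfl)
    · exact h.EJ
    · exact h.Ew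
  exact key (h.small_closure hs hx)

theorem W4.E_U1 (h : W4 i t z J w o s1 s2) (hs : h.small) {c : L} (hc : c ∈ h.Q) : ∀ x ∈ h.E, i (c, 1) * x * (i (c, 1))⁻¹ ∈ h.E := by
  have hcinv : (i (c, 1))⁻¹ = i (c⁻¹, 1) := by
    rw [← map_inv, Prod.inv_mk, inv_one]
  have hz1 : i (z, 1) ∈ h.E := by rw [← h.izi]; exact h.E.mul_mem h.Ez h.Ezz
  -- conjugates
  have hcJ : c * J * c⁻¹ = J ∨ c * J * c⁻¹ = J * z := by
    rcases hc with hc | ⟨d, hd, rfl⟩
    · left; rw [hc.1, mul_inv_cancel_right]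
    · right
      have h1 : d * w * J * (d * w)⁻¹ = d * (w * J * w⁻¹) * d⁻¹ := by group
      rw [h1, h.inv J rfl, h.Ji]
      have h2 : d * (J * z) = (J * z) * d := by
        rw [← mul_assoc, hd.1, mul_assoc, h.zc, mul_assoc]
      rw [h2, mul_inv_cancel_right]
  have hcw : c * w * c⁻¹ = w ∨ c * w * c⁻¹ = w * z := by
    have key : ∀ d ∈ h.C, d * w * d⁻¹ = w ∨ d * w * d⁻¹ = w * z := by
      intro d hd
      have h1 : d * w * d⁻¹ = w * (d * d)⁻¹ := by rw [h.wC' hd]; group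
      rw [h1]
      rcases h.small_sq hs hd with h2 | h2
      · left; rw [h2, inv_one, mul_one]
      · right; rw [h2, h.zi]
    rcases hc with hc | ⟨d, hd, rfl⟩
    · exact key c hc
    · have h1 : d * w * w * (d * w)⁻¹ = d * w * d⁻¹ := by group
      rw [h1]; exact key d hd
  apply h.E_conj
  · rw [hcinv, ← map_mul, ← map_mul, Prod.mk_mul_mk, Prod.mk_mul_mk, one_mul, mul_one]
    rcases hcJ with h1 | h1
    · rw [h1]; exact h.EJ
    · rw [h1]
      have := h.E.mul_mem h.EJ hz1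
      rwa [← map_mul, Prod.mk_mul_mk, mul_one] at this
  · rw [hcinv, ← map_mul, ← map_mul, Prod.mk_mul_mk, Prod.mk_mul_mk, one_mul, mul_one]
    rcases hcw with h1 | h1
    · rw [h1]; exact h.Ew
    · rw [h1]
      have := h.E.mul_mem h.Ew hz1
      rwa [← map_mul, Prod.mk_mul_mk, mul_one] at this
  · rw [hcinv, ← map_mul, ← map_mul, Prod.mk_mul_mk, Prod.mk_mul_mk, one_mul, mul_one, mul_one, mul_inv_cancel]
    exact h.Ez
  · rw [hcinv, mul_assoc, h.tc, ← mul_assoc, ← map_mul, Prod.mk_mul_mk, mul_one, one_mul]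
    rcases h.small_inv hs hc with h1 | h1
    · rw [h1]; exact h.E.mul_mem (h.diag_E hs hc) h.Et
    · rw [h1]
      have h2 := h.E.mul_mem (h.E.mul_mem (h.diag_E hs hc) h.Ez) h.Et
      rwa [← map_mul, Prod.mk_mul_mk, mul_one] at h2

theorem W4.E_U (h : W4 i t z J w o s1 s2) (hs : h.small) {u : H} (hu : u ∈ h.U) : ∀ x ∈ h.E, u * x * u⁻¹ ∈ h.E := by
  have hin : ∀ g ∈ h.E, ∀ x ∈ h.E, g * x * g⁻¹ ∈ h.E := fun g hg x hx => h.E.mul_mem (h.E.mul_mem hg hx) (h.E.inv_mem hg)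
  have hab : ∀ a ∈ h.Q, ∀ b ∈ h.Q, ∀ x ∈ h.E, i (a, b) * x * (i (a, b))⁻¹ ∈ h.E := by
    intro a ha b hb x hx
    have h1 : i (a, b) = i (b, b) * i (b⁻¹ * a, 1) := by
      rw [← map_mul, Prod.mk_mul_mk, mul_one, mul_inv_cancel_left]
    have h2 : i (a, b) * x * (i (a, b))⁻¹ = i (b, b) * (i (b⁻¹ * a, 1) * x * (i (b⁻¹ * a, 1))⁻¹) * (i (b, b))⁻¹ := by
      rw [h1]; group
    rw [h2]
    exact hin _ (h.diag_E hs hb) _ (h.E_U1 hs (h.Q.mul_mem (h.Q.inv_mem hb) ha) x hx)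
  intro x hx
  obtain ⟨a, ha, b, hb, h1 | h1⟩ := hu
  · rw [h1]; exact hab a ha b hb x hx
  · have h2 : u * x * u⁻¹ = i (a, b) * (t * x * t⁻¹) * (i (a, b))⁻¹ := by rw [h1]; group
    rw [h2]
    exact hab a ha b hb _ (hin t h.Et x hx)

/-- elements commuting with `t` modulo the centre -/
theorem W4.E_cen (h : W4 i t z J w o s1 s2) (hs : h.small) {u : H} (hu : u ∈ h.U) (ht : u * t = t * u ∨ u * t = t * u * i (z, z)) : u ∈ h.E := by
  have hab : ∀ a ∈ h.Q, ∀ b ∈ h.Q, (i (a, b) * t = t * i (a, b) ∨ i (a, b) * t = t * i (a, b) * i (z, z)) → i (a, b) ∈ h.E := by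
    intro a ha b hb h1
    rcases h1 with h1 | h1
    · rw [h.tc] at h1
      have h2 := h.inj (mul_right_cancel h1)
      simp only [Prod.mk.injEq] at h2
      rw [h2.1]; exact h.diag_E hs hb
    · rw [h.tc, mul_assoc, h.tc, ← mul_assoc, ← map_mul] at h1
      have h2 := h.inj (mul_right_cancel h1)
      simp only [Prod.mk_mul_mk, Prod.mk.injEq] at h2
      rw [h2.2]
      have h3 := h.E.mul_mem (h.diag_E hs ha) h.Ez
      rwa [← map_mul, Prod.mk_mul_mk, mul_one] at h3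
  obtain ⟨a, ha, b, hb, h1 | h1⟩ := hu
  · rw [h1] at ht ⊢; exact hab a ha b hb ht
  · rw [h1]
    refine h.E.mul_mem (hab a ha b hb ?_) h.Et
    rcases ht with ht | ht
    · left
      have := congrArg (fun y => y * t) ht
      simp only [h1, mul_assoc, h.t2, mul_one] at this
      exact this
    · right
      have := congrArg (fun y => y * t) ht
      simp only [h1, mul_assoc, h.t2, mul_one] at this
      rw [this, ← h.zz t, ← mul_assoc t t, h.t2, one_mul, mul_assoc]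

variable {G : Type*} [Group G]

section quot

variable (h : W4 i t z J w o s1 s2) (π : H →* G) (hπ : Function.Surjective π) (hker : ∀ x, π x = 1 ↔ x = 1 ∨ x = i (z, z))

include hker in
theorem W4.pi_eq (h : W4 i t z J w o s1 s2) {x y : H} (hxy : π x = π y) : x = y ∨ x = y * i (z, z) := by
  have h1 : π (y⁻¹ * x) = 1 := by rw [map_mul, map_inv, hxy, inv_mul_cancel]
  rcases (hker _).1 h1 with h2 | h2
  · left; exact (inv_mul_eq_one.1 h2).symm
  · right; rw [← h2, mul_inv_cancel_left]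

include hker in
theorem W4.pi_mem (h : W4 i t z J w o s1 s2) {R : Subgroup H} (hR : i (z, z) ∈ R) {x : H} : π x ∈ R.map π ↔ x ∈ R := by
  constructor
  · rintro ⟨y, hy, hxy⟩
    rcases h.pi_eq π hker hxy.symm with h1 | h1
    · rw [h1]; exact hy
    · rw [h1]; exact R.mul_mem hy hR
  · intro hx; exact ⟨x, hx, rfl⟩

include hker in
theorem W4.pi_norm (h : W4 i t z J w o s1 s2) {x : H} (hx : π x ∈ Subgroup.normalizer ((h.U.map π : Subgroup G) : Set G)) :
    (∀ y ∈ h.U, x * y * x⁻¹ ∈ h.U) ∧ (∀ y ∈ h.U, x⁻¹ * y * x ∈ h.U) := by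
  rw [Subgroup.mem_normalizer_iff] at hx
  constructor
  · intro y hy
    have h1 := (hx (π y)).1 ⟨y, hy, rfl⟩
    rw [← map_inv, ← map_mul, ← map_mul, h.pi_mem π hker h.zzU] at h1
    exact h1
  · intro y hy
    have h1 := (hx (π (x⁻¹ * y * x))).2 (by
      rw [← map_inv, ← map_mul, ← map_mul, h.pi_mem π hker h.zzU]
      have : x * (x⁻¹ * y * x) * x⁻¹ = y := by group
      rw [this]; exact hy)
    exact (h.pi_mem π hker h.zzU).1 h1

include hker in
theorem W4.norm_pi [Finite G] (h : W4 i t z J w o s1 s2) {R : Subgroup H} {x : H} (hx : ∀ y ∈ R, x * y * x⁻¹ ∈ R) :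
    π x ∈ Subgroup.normalizer ((R.map π : Subgroup G) : Set G) := by
  apply Subgroup.mem_normalizer_fintype
  rintro _ ⟨y, hy, rfl⟩
  exact ⟨x * y * x⁻¹, hx y hy, by rw [map_mul, map_mul, map_inv]⟩

include hπ hker in
theorem W4.simpleData [Finite H] (h : W4 i t z J w o s1 s2) : SimpleData 2 (h.U.map π) := by
  haveI : Fact (Nat.Prime 2) := ⟨Nat.prime_two⟩
  haveI : Finite G := Finite.of_surjective π hπ
  have hU : IsPGroup 2 (h.U.map π) := h.U_isP.map π
  have hpt : ∀ y ∈ h.U, π y ∈ h.U.map π := fun y hy => ⟨y, hy, rfl⟩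
  have hord : ∀ y ∈ h.U, ∃ k : ℕ, orderOf (π y) = 2 ^ k := by
    intro y hy
    obtain ⟨k, hk⟩ := h.U_isP ⟨y, hy⟩
    have hk' : y ^ 2 ^ k = 1 := congrArg Subtype.val hk
    obtain ⟨j, -, hj⟩ := (Nat.dvd_prime_pow Nat.prime_two).1 (orderOf_dvd_of_pow_eq_one (x := π y) (n := 2 ^ k) (by rw [← map_pow, hk', map_one]))
    exact ⟨j, hj⟩
  refine ⟨hU, ?_, ?_, ?_, ?_⟩
  · intro h0
    have h1 : π t ∈ h.U.map π := ⟨t, h.tU, rfl⟩
    rw [h0, Subgroup.mem_bot] at h1
    rcases (hker t).1 h1 with h2 | h2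
    · exact h.tin 1 1 ((map_one i).trans h2.symm)
    · exact h.tin z z h2.symm
  · intro g hg
    obtain ⟨x, rfl⟩ := hπ g
    obtain ⟨h1, h2⟩ := h.pi_norm π hker hg
    refine ⟨3, by norm_num, ?_⟩
    rw [← map_pow]
    exact ⟨x ^ 3, h.cube h1 h2, rfl⟩
  · intro T hTU hT1 hT
    have hTm : ∀ x, x ∈ T.comap π ↔ π x ∈ T := fun x => Iff.rfl
    have hT'U : T.comap π ≤ h.U := fun x hx => (h.pi_mem π hker h.zzU).1 (hTU hx)
    have hzz : i (z, z) ∈ T.comap π := by
      rw [hTm, (hker _).2 (Or.inr rfl)]; exact T.one_mem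
    -- an involution
    obtain ⟨s, hsT, hs1, hs2⟩ : ∃ s ∈ T, s ≠ 1 ∧ s * s = 1 := by
      obtain ⟨⟨x, hx⟩, hx0⟩ := Subgroup.ne_bot_iff_exists_ne_one.1 hT1
      have hx1 : x ≠ 1 := fun h => hx0 (Subtype.ext h)
      obtain ⟨k, hk⟩ := hU ⟨x, hTU hx⟩
      have hk' : x ^ 2 ^ k = 1 := congrArg Subtype.val hk
      have hex : ∃ k, x ^ 2 ^ k = 1 := ⟨k, hk'⟩
      classical
      have hmin := Nat.find_spec hex
      have hpos : Nat.find hex ≠ 0 := by
        intro h0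
        rw [h0, pow_zero, pow_one] at hmin
        exact hx1 hmin
      obtain ⟨r, hr⟩ := Nat.exists_eq_succ_of_ne_zero hpos
      refine ⟨x ^ 2 ^ r, T.pow_mem hx _, fun h1 => ?_, ?_⟩
      · exact Nat.find_min hex (by rw [hr]; exact Nat.lt_succ_self r) h1
      · rw [← pow_two, ← pow_mul, ← pow_succ]
        rw [hr] at hmin; exact hmin
    obtain ⟨x, rfl⟩ := hπ s
    have h1 : h.U ≤ T.comap π := by
      refine h.scl_aux hT'U hzz ?_ (x := x) hsT ?_ ?_ ?_
      · intro g y hy hgy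
        rw [hTm, map_mul, map_mul, map_inv]
        apply hT (π g) (π y) hy
        rw [← map_inv, ← map_mul, ← map_mul]
        exact ⟨_, hgy, rfl⟩
      · rintro rfl; exact hs1 (map_one π)
      · rintro rfl; exact hs1 ((hker _).2 (Or.inr rfl))
      · rw [← map_mul] at hs2
        exact (hker _).1 hs2
    rintro _ ⟨y, hy, rfl⟩
    exact h1 hy
  · intro g hg
    set K := Subgroup.closure {g : G | g ∈ Subgroup.normalizer ((h.U.map π : Subgroup G) : Set G) ∧
      ((∀ x ∈ h.U.map π, g * x = x * g) ∨ ∃ R ≤ h.U.map π, h.U.map π ≤ Subgroup.normalizer (R : Set G) ∧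
      (∀ x ∈ h.U.map π, (∀ y ∈ R, x * y = y * x) → x ∈ R) ∧ g ∈ pGen 2 R)} with hK
    have hUK : ∀ y ∈ h.U, π y ∈ K := by
      intro y hy
      refine Subgroup.subset_closure ⟨Subgroup.le_normalizer (hpt y hy), Or.inr ⟨_, le_rfl, Subgroup.le_normalizer, fun x hx _ => hx, ?_⟩⟩
      exact Subgroup.subset_closure ⟨Subgroup.le_normalizer (hpt y hy), hord y hy⟩
    have hoK : h.small → π (i (o, o)) ∈ K := by
      intro hs
      refine Subgroup.subset_closure ⟨h.norm_pi π hker (h.o_U hs), Or.inr ⟨h.E.map π, Subgroup.map_mono h.E_le, ?_, ?_, ?_⟩⟩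
      · rintro _ ⟨u, hu, rfl⟩
        exact h.norm_pi π hker (h.E_U hs hu)
      · rintro _ ⟨u, hu, rfl⟩ hc
        have h1 := hc (π t) ⟨t, h.Et, rfl⟩
        rw [← map_mul, ← map_mul] at h1
        exact ⟨u, h.E_cen hs hu (h.pi_eq π hker h1), rfl⟩
      · rw [← h.s12, map_mul]
        have h4 : ∀ s : H, s * s * (s * s) = 1 → (∀ x ∈ h.E, s * x * s⁻¹ ∈ h.E) → π s ∈ pGen 2 (h.E.map π) := by
          intro s hs4 hsE
          refine Subgroup.subset_closure ⟨h.norm_pi π hker hsE, ?_⟩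
          have h5 : (π s) ^ 2 ^ 2 = 1 := by
            rw [← map_pow]
            have : s ^ 2 ^ 2 = s * s * (s * s) := by
              rw [show (2 : ℕ) ^ 2 = 2 * 2 by norm_num, pow_mul, pow_two, pow_two]
            rw [this, hs4, map_one]
          obtain ⟨j, -, hj⟩ := (Nat.dvd_prime_pow Nat.prime_two).1 (orderOf_dvd_of_pow_eq_one h5)
          exact ⟨j, hj⟩
        exact Subgroup.mul_mem _ (h4 s1 h.s1o h.E_s1) (h4 s2 h.s2o h.E_s2)
    obtain ⟨x, rfl⟩ := hπ g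
    obtain ⟨h1, h2⟩ := h.pi_norm π hker hg
    rcases h.norm_U h1 h2 with h3 | ⟨hs, v, hv, u, hu, h3 | h3⟩
    · exact hUK x h3
    · rw [h3, map_mul, map_mul]
      exact K.mul_mem (hUK v hv) (K.mul_mem (hoK hs) (hUK u hu))
    · rw [h3, map_mul, map_mul, map_mul]
      exact K.mul_mem (hUK v hv) (K.mul_mem (K.mul_mem (hoK hs) (hoK hs)) (hUK u hu))

end quot

end CfsgLib.Wrx
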