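import Cfsg.Agent.LibWrx4
import Mathlib.LinearAlgebra.Matrix.SpecialLinearGroup
import Mathlib.LinearAlgebra.SymplecticGroup
import Mathlib.FieldTheory.Finite.Basic

set_option autoImplicit false

/-! The wreathed quaternion Sylow 2-subgroups in `Sp₄`: the group `SL₂` (helper1) -/

namespace CfsgLib.Wrx

open Cfsg CfsgLib.Fus21 Matrix

section sl2

variable {F : Type*} [Field F]

abbrev S2 (F : Type*) [Field F] := SpecialLinearGroup (Fin 2) F

theorem sl2_ext {x y : S2 F} (h00 : x.1 0 0 = y.1 0 0) (h01 : x.1 0 1 = y.1 0 1) (h10 : x.1 1 0 = y.1 1 0) (h11 : x.1 1 1 = y.1 1 1) : x = y := by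
  apply Subtype.ext
  ext i j
  fin_cases i <;> fin_cases j <;> assumption

theorem sl2_mul (x y : S2 F) (i j : Fin 2) : (x * y).1 i j = x.1 i 0 * y.1 0 j + x.1 i 1 * y.1 1 j := by
  show (x.1 * y.1) i j = _
  rw [Matrix.mul_apply, Fin.sum_univ_two]

theorem sl2_det (x : S2 F) : x.1 0 0 * x.1 1 1 - x.1 0 1 * x.1 1 0 = 1 := by
  rw [← Matrix.det_fin_two]; exact x.2

def mkS (a b c d : F) (h : a * d - b * c = 1) : S2 F := ⟨!![a, b; c, d], by rwa [Matrix.det_fin_two_of]⟩

@[simp] theorem mkS_00 (a b c d : F) (h) : ((mkS a b c d h : S2 F)).1 0 0 = a := rfl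
@[simp] theorem mkS_01 (a b c d : F) (h) : ((mkS a b c d h : S2 F)).1 0 1 = b := rfl
@[simp] theorem mkS_10 (a b c d : F) (h) : ((mkS a b c d h : S2 F)).1 1 0 = c := rfl
@[simp] theorem mkS_11 (a b c d : F) (h) : ((mkS a b c d h : S2 F)).1 1 1 = d := rfl

theorem sl2_one (i j : Fin 2) : (1 : S2 F).1 i j = if i = j then 1 else 0 := rfl

variable (F)

def zS : S2 F := mkS (-1) 0 0 (-1) (by ring)
def JS : S2 F := mkS 0 (-1) 1 0 (by ring)

variable {F}

def wS (a b : F) (h : a * a + b * b = -1) : S2 F := mkS a b b (-a) (by linear_combination -h)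

def oS (h2 : (2 : F) ≠ 0) (a b : F) (h : a * a + b * b = -1) : S2 F :=
  mkS ((1 + a - b) / 2) ((b + a - 1) / 2) ((b + a + 1) / 2) ((1 - a + b) / 2) (by field_simp; linear_combination -2 * h)

theorem S_L1 (h2 : (2 : F) ≠ 0) (x : S2 F) (hx : x * x = 1) : x = 1 ∨ x = zS F := by
  have h00 := congrArg (fun z : S2 F => z.1 0 0) hx
  have h01 := congrArg (fun z : S2 F => z.1 0 1) hx
  have h10 := congrArg (fun z : S2 F => z.1 1 0) hx
  have h11 := congrArg (fun z : S2 F => z.1 1 1) hx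
  have hd := sl2_det x
  simp only [sl2_mul, sl2_one] at h00 h01 h10 h11
  simp at h00 h01 h10 h11
  have h3 : (x.1 0 0 + x.1 1 1) * x.1 0 0 = 2 := by linear_combination h00 + hd
  have h4 : x.1 0 0 + x.1 1 1 ≠ 0 := left_ne_zero_of_mul (by rw [h3]; exact h2)
  have h5 : x.1 0 1 = 0 := (mul_eq_zero.1 (show (x.1 0 0 + x.1 1 1) * x.1 0 1 = 0 by linear_combination h01)).resolve_left h4
  have h6 : x.1 1 0 = 0 := (mul_eq_zero.1 (show (x.1 0 0 + x.1 1 1) * x.1 1 0 = 0 by linear_combination h10)).resolve_left h4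
  have h7 : x.1 1 1 = x.1 0 0 := by
    have h8 : (x.1 0 0 + x.1 1 1) * (x.1 1 1 - x.1 0 0) = 0 := by linear_combination h11 - h00
    linear_combination (mul_eq_zero.1 h8).resolve_left h4
  have h8 : (x.1 0 0 - 1) * (x.1 0 0 + 1) = 0 := by rw [h5] at h00; linear_combination h00
  rcases mul_eq_zero.1 h8 with h9 | h9
  · left
    have h10 : x.1 0 0 = 1 := by linear_combination h9
    apply sl2_ext <;> simp [sl2_one, h5, h6, h7, h10]
  · right
    have h10 : x.1 0 0 = -1 := by linear_combination h9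
    apply sl2_ext <;> simp [zS, h5, h6, h7, h10]

theorem S_memA (x : S2 F) : x * JS F = JS F * x ↔ x.1 1 1 = x.1 0 0 ∧ x.1 0 1 = - x.1 1 0 := by
  constructor
  · intro h
    have h1 := congrArg (fun z : S2 F => z.1 0 0) h
    have h2 := congrArg (fun z : S2 F => z.1 1 0) h
    simp only [sl2_mul, JS, mkS_00, mkS_01, mkS_10, mkS_11] at h1 h2
    constructor
    · linear_combination h2
    · linear_combination h1
  · rintro ⟨h1, h2⟩
    apply sl2_ext <;> simp only [sl2_mul, JS, mkS_00, mkS_01, mkS_10, mkS_11, h1, h2] <;> ring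

theorem S_zc (x : S2 F) : x * zS F = zS F * x := by
  apply sl2_ext <;> simp [sl2_mul, zS]

theorem S_z2 : zS F * zS F = 1 := by
  apply sl2_ext <;> simp [sl2_mul, zS, sl2_one]

theorem S_z1 (h2 : (2 : F) ≠ 0) : zS F ≠ 1 := by
  intro h
  have := congrArg (fun z : S2 F => z.1 0 0) h
  simp [zS, sl2_one] at this
  exact h2 (by linear_combination -this)

theorem S_JJ : JS F * JS F = zS F := by
  apply sl2_ext <;> simp [sl2_mul, zS, JS]

theorem S_ww (a b : F) (h : a * a + b * b = -1) : wS a b h * wS a b h = zS F := by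
  apply sl2_ext <;> simp [sl2_mul, zS, wS]
  · exact h
  · ring
  · ring
  · linear_combination h

theorem S_comm (x y : S2 F) (hx : x * JS F = JS F * x) (hy : y * JS F = JS F * y) : x * y = y * x := by
  obtain ⟨h3, h4⟩ := (S_memA x).1 hx
  obtain ⟨h5, h6⟩ := (S_memA y).1 hy
  apply sl2_ext <;> simp only [sl2_mul, h3, h4, h5, h6] <;> ring

theorem S_inv (a b : F) (h : a * a + b * b = -1) (x : S2 F) (hx : x * JS F = JS F * x) : wS a b h * x * (wS a b h)⁻¹ = x⁻¹ := by
  obtain ⟨h3, h4⟩ := (S_memA x).1 hx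
  have hd := sl2_det x
  rw [h3, h4] at hd
  rw [mul_inv_eq_iff_eq_mul, eq_inv_mul_iff_mul_eq]
  apply sl2_ext <;> simp [sl2_mul, wS, h3, h4]
  · linear_combination a * hd
  · linear_combination b * hd
  · linear_combination b * hd
  · linear_combination -a * hd

theorem S_L3 (c : S2 F) (h2 : (2 : F) ≠ 0) (hc : c * JS F = JS F * c) (hc1 : c ≠ 1) (hcz : c ≠ zS F) (g : S2 F) (hg : g * c = c * g) : g * JS F = JS F * g := by
  obtain ⟨h3, h4⟩ := (S_memA c).1 hc
  have h10 : c.1 1 0 ≠ 0 := by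
    intro h0
    have hd := sl2_det c
    rw [h3, h4, h0] at hd
    have h8 : (c.1 0 0 - 1) * (c.1 0 0 + 1) = 0 := by linear_combination hd
    rcases mul_eq_zero.1 h8 with h9 | h9
    · apply hc1
      have h10 : c.1 0 0 = 1 := by linear_combination h9
      apply sl2_ext <;> simp [sl2_one, h3, h4, h0, h10]
    · apply hcz
      have h10 : c.1 0 0 = -1 := by linear_combination h9
      apply sl2_ext <;> simp [zS, h3, h4, h0, h10]
  rw [S_memA]
  have e1 := congrArg (fun z : S2 F => z.1 0 0) hg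
  have e2 := congrArg (fun z : S2 F => z.1 1 0) hg
  simp only [sl2_mul, h3, h4] at e1 e2
  constructor
  · have : c.1 1 0 * (g.1 1 1 - g.1 0 0) = 0 := by linear_combination e2
    linear_combination (mul_eq_zero.1 this).resolve_left h10
  · have : c.1 1 0 * (g.1 0 1 + g.1 1 0) = 0 := by linear_combination e1
    linear_combination (mul_eq_zero.1 this).resolve_left h10

theorem S_L4 (h2 : (2 : F) ≠ 0) (c : S2 F) (hc : c * JS F = JS F * c) (hcz : c * c = zS F) : c = JS F ∨ c = (JS F)⁻¹ := by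
  obtain ⟨h3, h4⟩ := (S_memA c).1 hc
  have hd := sl2_det c
  have e1 := congrArg (fun z : S2 F => z.1 0 0) hcz
  simp only [sl2_mul, zS, mkS_00] at e1
  rw [h3, h4] at hd
  rw [h4] at e1
  have h5 : (2 : F) * (c.1 0 0 * c.1 0 0) = 0 := by linear_combination hd + e1
  have h6 : c.1 0 0 = 0 := by simpa using (mul_eq_zero.1 h5).resolve_left h2
  rw [h6] at hd
  have h8 : (c.1 1 0 - 1) * (c.1 1 0 + 1) = 0 := by linear_combination hd
  rcases mul_eq_zero.1 h8 with h9 | h9
  · left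
    have h10 : c.1 1 0 = 1 := by linear_combination h9
    apply sl2_ext <;> simp [JS, h3, h4, h6, h10]
  · right
    have h10 : c.1 1 0 = -1 := by linear_combination h9
    rw [eq_inv_iff_mul_eq_one]
    apply sl2_ext <;> simp [sl2_mul, sl2_one, JS, h3, h4, h6, h10]

theorem S_oJ (h2 : (2 : F) ≠ 0) (a b : F) (h : a * a + b * b = -1) : oS h2 a b h * JS F * (oS h2 a b h)⁻¹ = wS a b h := by
  rw [mul_inv_eq_iff_eq_mul]
  apply sl2_ext <;> simp [sl2_mul, wS, JS, oS]
  · field_simp; grind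
  · field_simp; grind
  · field_simp; grind
  · field_simp; grind

theorem S_ow (h2 : (2 : F) ≠ 0) (a b : F) (h : a * a + b * b = -1) : oS h2 a b h * wS a b h * (oS h2 a b h)⁻¹ = JS F * wS a b h := by
  rw [mul_inv_eq_iff_eq_mul]
  apply sl2_ext <;> simp [sl2_mul, wS, JS, oS]
  · field_simp; grind
  · field_simp; grind
  · field_simp; grind
  · field_simp; grind

theorem S_o3 (h2 : (2 : F) ≠ 0) (a b : F) (h : a * a + b * b = -1) : oS h2 a b h * oS h2 a b h * oS h2 a b h = zS F := by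
  apply sl2_ext <;> simp [sl2_mul, zS, oS]
  · field_simp; grind
  · field_simp; grind
  · field_simp; grind
  · field_simp; grind

theorem sumsq [Fintype F] (h2 : Fintype.card F % 2 = 1) (c : F) : ∃ u v : F, u * u + v * v = c := by
  classical
  obtain ⟨a, b, hab⟩ := FiniteField.exists_root_sum_quadratic (f := (Polynomial.X ^ 2 : Polynomial F)) (g := Polynomial.X ^ 2 - Polynomial.C c)
    (Polynomial.degree_X_pow 2) (Polynomial.degree_X_pow_sub_C (by decide) _) h2
  refine ⟨a, b, ?_⟩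
  simp only [Polynomial.eval_pow, Polynomial.eval_X, Polynomial.eval_sub, Polynomial.eval_C] at hab
  linear_combination hab

theorem S_L2 [Fintype F] (h2 : (2 : F) ≠ 0) (hF : Fintype.card F % 2 = 1) (x : S2 F) (hx : x * x = zS F) : ∃ g : S2 F, g * x * g⁻¹ = JS F := by
  have h00 := congrArg (fun z : S2 F => z.1 0 0) hx
  have h01 := congrArg (fun z : S2 F => z.1 0 1) hx
  have h10 := congrArg (fun z : S2 F => z.1 1 0) hx
  have h11 := congrArg (fun z : S2 F => z.1 1 1) hx
  have hd := sl2_det x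
  simp only [sl2_mul, zS, mkS_00, mkS_01, mkS_10, mkS_11] at h00 h01 h10 h11
  have h3 : (x.1 0 0 + x.1 1 1) * x.1 0 0 = 0 := by linear_combination h00 + hd
  have h4 : (x.1 0 0 + x.1 1 1) * x.1 1 1 = 0 := by linear_combination h11 + hd
  have h5 : x.1 1 1 = - x.1 0 0 := by
    have h6 : (x.1 0 0 + x.1 1 1) * (x.1 0 0 + x.1 1 1) = 0 := by linear_combination h3 + h4
    have h7 := mul_self_eq_zero.1 h6
    linear_combination h7
  obtain ⟨a, ha⟩ : ∃ a, a = x.1 0 0 := ⟨_, rfl⟩
  obtain ⟨b, hb⟩ : ∃ b, b = x.1 0 1 := ⟨_, rfl⟩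
  obtain ⟨c, hc⟩ : ∃ c, c = x.1 1 0 := ⟨_, rfl⟩
  rw [h5, ← ha, ← hb, ← hc] at hd
  have hd' : a * a + b * c = -1 := by linear_combination -hd
  -- a vector `v` with `det (v, x v) = 1`
  obtain ⟨v1, v2, hv⟩ : ∃ v1 v2 : F, c * v1 * v1 - 2 * a * v1 * v2 - b * v2 * v2 = 1 := by
    by_cases hc0 : c = 0
    · have ha0 : a ≠ 0 := by
        rintro rfl
        rw [hc0] at hd'
        simp at hd'
      refine ⟨-(1 + b) / (2 * a), 1, ?_⟩
      rw [hc0]
      field_simp
      ring
    · obtain ⟨y, u, hyu⟩ := sumsq hF c⁻¹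
      refine ⟨y + a * u, c * u, ?_⟩
      have h6 : c * (y * y + u * u) = 1 := by rw [hyu, mul_inv_cancel₀ hc0]
      linear_combination h6 - c * u * u * hd'
  have hgd : v1 * (c * v1 - a * v2) - (a * v1 + b * v2) * v2 = 1 := by linear_combination hv
  refine ⟨(mkS v1 (a * v1 + b * v2) v2 (c * v1 - a * v2) hgd)⁻¹, ?_⟩
  rw [inv_inv, mul_assoc, inv_mul_eq_iff_eq_mul]
  apply sl2_ext <;> simp [sl2_mul, JS, h5, ← ha, ← hb, ← hc] <;> grind

end sl2

end CfsgLib.Wrx
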