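import Cfsg.Agent.LibWrx5

set_option autoImplicit false

/-! The wreathed quaternion Sylow 2-subgroups in `Sp₄` (helper1) -/

namespace CfsgLib.Wrx

open Cfsg CfsgLib.Fus21 Matrix

section sp4

variable {F : Type*} [Field F]

abbrev M4 (F : Type*) := Matrix (Fin 2 ⊕ Fin 2) (Fin 2 ⊕ Fin 2) F

abbrev S4 (F : Type*) [Field F] := ↥(Matrix.symplecticGroup (Fin 2) F)

theorem sp_mul (x y : M4 F) (p r : Fin 2 ⊕ Fin 2) : (x * y) p r = x p (Sum.inl 0) * y (Sum.inl 0) r + x p (Sum.inl 1) * y (Sum.inl 1) r +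
    (x p (Sum.inr 0) * y (Sum.inr 0) r + x p (Sum.inr 1) * y (Sum.inr 1) r) := by
  rw [Matrix.mul_apply, Fintype.sum_sum_type, Fin.sum_univ_two, Fin.sum_univ_two]

theorem sp_mem (A : M4 F) : A ∈ Matrix.symplecticGroup (Fin 2) F ↔ ∀ p r, A p (Sum.inr 0) * A r (Sum.inl 0) + A p (Sum.inr 1) * A r (Sum.inl 1) -
    A p (Sum.inl 0) * A r (Sum.inr 0) - A p (Sum.inl 1) * A r (Sum.inr 1) = Matrix.J (Fin 2) F p r := by
  rw [SymplecticGroup.mem_iff]
  have key : ∀ p r, (A * Matrix.J (Fin 2) F * Aᵀ) p r = A p (Sum.inr 0) * A r (Sum.inl 0) + A p (Sum.inr 1) * A r (Sum.inl 1) -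
    A p (Sum.inl 0) * A r (Sum.inr 0) - A p (Sum.inl 1) * A r (Sum.inr 1) := by
    intro p r
    rw [sp_mul, sp_mul, sp_mul, sp_mul, sp_mul]
    simp [Matrix.J, Matrix.transpose_apply, Matrix.one_apply]
    ring
  constructor
  · intro h p r
    rw [← key, h]
  · intro h
    ext p r
    rw [key, h]

/-- the embedding -/
def iM (a b : S2 F) : M4 F := fromBlocks !![a.1 0 0, 0; 0, b.1 0 0] !![a.1 0 1, 0; 0, b.1 0 1] !![a.1 1 0, 0; 0, b.1 1 0] !![a.1 1 1, 0; 0, b.1 1 1]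

theorem iM_mem (a b : S2 F) : iM a b ∈ Matrix.symplecticGroup (Fin 2) F := by
  rw [sp_mem]
  have h1 := sl2_det a
  have h2 := sl2_det b
  rintro (p | p) (r | r) <;> fin_cases p <;> fin_cases r <;> simp [iM, Matrix.J] <;> grind

def iH : S2 F × S2 F →* S4 F where
  toFun x := ⟨iM x.1 x.2, iM_mem x.1 x.2⟩
  map_one' := by
    apply Subtype.ext
    show iM 1 1 = 1
    ext (p | p) (r | r) <;> fin_cases p <;> fin_cases r <;> simp [iM, sl2_one, Matrix.one_apply]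
  map_mul' x y := by
    apply Subtype.ext
    show iM (x.1 * y.1) (x.2 * y.2) = iM x.1 x.2 * iM y.1 y.2
    ext (p | p) (r | r) <;> rw [sp_mul] <;> fin_cases p <;> fin_cases r <;> simp [iM, sl2_mul]

theorem iH_val (a b : S2 F) : (iH (a, b)).1 = iM a b := rfl

variable (F)

def tM : M4 F := fromBlocks !![0, 1; 1, 0] 0 0 !![0, 1; 1, 0]

theorem tM_mem : tM F ∈ Matrix.symplecticGroup (Fin 2) F := by
  rw [sp_mem]
  rintro (p | p) (r | r) <;> fin_cases p <;> fin_cases r <;> simp [tM, Matrix.J]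

def tH : S4 F := ⟨tM F, tM_mem F⟩

def kM : M4 F := fromBlocks !![1/2, 1/2; 1/2, -1/2] 0 0 !![1, 1; 1, -1]

theorem kM_mem (h2 : (2 : F) ≠ 0) : kM F ∈ Matrix.symplecticGroup (Fin 2) F := by
  rw [sp_mem]
  rintro (p | p) (r | r) <;> fin_cases p <;> fin_cases r <;> simp [kM, Matrix.J] <;> (try field_simp) <;> (try norm_num) <;> grind

def s1M : M4 F := fromBlocks !![1/2, 1/2; -1/2, 1/2] !![-1/2, -1/2; 1/2, -1/2] !![1/2, 1/2; -1/2, 1/2] !![1/2, 1/2; -1/2, 1/2]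

theorem s1M_mem (h2 : (2 : F) ≠ 0) : s1M F ∈ Matrix.symplecticGroup (Fin 2) F := by
  rw [sp_mem]
  have h4 : (1 : F) / 2 + 1 / 2 = 1 := by field_simp; norm_num
  rintro (p | p) (r | r) <;> fin_cases p <;> fin_cases r <;> simp [s1M, Matrix.J] <;> grind

variable {F}

def s2M (a b : F) : M4 F := fromBlocks !![(1+a)/2, -(1+a)/2; (1+a)/2, (1+a)/2] !![b/2, -b/2; b/2, b/2] !![b/2, -b/2; b/2, b/2] !![(1-a)/2, -(1-a)/2; (1-a)/2, (1-a)/2]

theorem s2M_mem (h2 : (2 : F) ≠ 0) (a b : F) (h : a * a + b * b = -1) : s2M a b ∈ Matrix.symplecticGroup (Fin 2) F := by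
  rw [sp_mem]
  rintro (p | p) (r | r) <;> fin_cases p <;> fin_cases r <;> simp [s2M, Matrix.J] <;> grind

end sp4

end CfsgLib.Wrx
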