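import Cfsg.Agent.LibWrx6

set_option autoImplicit false

/-! The wreathed quaternion Sylow 2-subgroups in `Sp₄`: the data (helper1) -/

namespace CfsgLib.Wrx

open Cfsg CfsgLib.Fus21 Matrix

section sp4

variable {F : Type*} [Field F]

theorem sp_ext {x y : S4 F} (h : ∀ p r, x.1 p r = y.1 p r) : x = y := by
  apply Subtype.ext
  ext p r
  exact h p r

theorem sp_mul' (x y : S4 F) (p r : Fin 2 ⊕ Fin 2) : (x * y).1 p r = x.1 p (Sum.inl 0) * y.1 (Sum.inl 0) r + x.1 p (Sum.inl 1) * y.1 (Sum.inl 1) r +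
    (x.1 p (Sum.inr 0) * y.1 (Sum.inr 0) r + x.1 p (Sum.inr 1) * y.1 (Sum.inr 1) r) := sp_mul x.1 y.1 p r

theorem iH_inj : Function.Injective (iH : S2 F × S2 F →* S4 F) := by
  rintro ⟨a, b⟩ ⟨c, d⟩ h
  have h' : ∀ p r, iM a b p r = iM c d p r := fun p r => by
    have := congrArg (fun x : S4 F => x.1 p r) h
    exact this
  rw [Prod.mk.injEq]
  constructor
  · apply sl2_ext
    · simpa [iM] using h' (Sum.inl 0) (Sum.inl 0)
    · simpa [iM] using h' (Sum.inl 0) (Sum.inr 0)
    · simpa [iM] using h' (Sum.inr 0) (Sum.inl 0)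
    · simpa [iM] using h' (Sum.inr 0) (Sum.inr 0)
  · apply sl2_ext
    · simpa [iM] using h' (Sum.inl 1) (Sum.inl 1)
    · simpa [iM] using h' (Sum.inl 1) (Sum.inr 1)
    · simpa [iM] using h' (Sum.inr 1) (Sum.inl 1)
    · simpa [iM] using h' (Sum.inr 1) (Sum.inr 1)

theorem izz_val (p r : Fin 2 ⊕ Fin 2) : (iH (zS F, zS F)).1 p r = if p = r then -1 else 0 := by
  rw [iH_val]
  rcases p with p | p <;> rcases r with r | r <;> fin_cases p <;> fin_cases r <;> simp [iM, zS]

theorem iz1_val (p r : Fin 2 ⊕ Fin 2) : (iH (zS F, 1)).1 p r = if p = r then (if p = Sum.inl 0 ∨ p = Sum.inr 0 then -1 else 1) else 0 := by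
  rw [iH_val]
  rcases p with p | p <;> rcases r with r | r <;> fin_cases p <;> fin_cases r <;> simp [iM, zS, sl2_one]

theorem H1_aux (h2 : (2 : F) ≠ 0) (h : S4 F) (hc : h * iH (zS F, 1) = iH (zS F, 1) * h) : ∃ a b, iH (a, b) = h := by
  have h' : ∀ p r, (h * iH (zS F, 1)).1 p r = (iH (zS F, 1) * h).1 p r := fun p r => by rw [hc]
  have key : ∀ p r, h.1 p r * (if r = Sum.inl 0 ∨ r = Sum.inr 0 then (-1 : F) else 1) = (if p = Sum.inl 0 ∨ p = Sum.inr 0 then (-1 : F) else 1) * h.1 p r := by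
    intro p r
    have h3 := h' p r
    rw [sp_mul', sp_mul'] at h3
    simp only [iz1_val] at h3
    rcases p with p | p <;> rcases r with r | r <;> fin_cases p <;> fin_cases r <;> simp at h3 ⊢ <;> exact h3
  have hz : ∀ x : F, -x = x → x = 0 := by
    intro x hx
    have : (2 : F) * x = 0 := by linear_combination -hx
    exact (mul_eq_zero.1 this).resolve_left h2
  have e1 : h.1 (Sum.inl 0) (Sum.inl 1) = 0 := hz _ (by simpa using (key (Sum.inl 0) (Sum.inl 1)).symm)
  have e2 : h.1 (Sum.inl 0) (Sum.inr 1) = 0 := hz _ (by simpa using (key (Sum.inl 0) (Sum.inr 1)).symm)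
  have e3 : h.1 (Sum.inl 1) (Sum.inl 0) = 0 := hz _ (by simpa using key (Sum.inl 1) (Sum.inl 0))
  have e4 : h.1 (Sum.inl 1) (Sum.inr 0) = 0 := hz _ (by simpa using key (Sum.inl 1) (Sum.inr 0))
  have e5 : h.1 (Sum.inr 0) (Sum.inl 1) = 0 := hz _ (by simpa using (key (Sum.inr 0) (Sum.inl 1)).symm)
  have e6 : h.1 (Sum.inr 0) (Sum.inr 1) = 0 := hz _ (by simpa using (key (Sum.inr 0) (Sum.inr 1)).symm)
  have e7 : h.1 (Sum.inr 1) (Sum.inl 0) = 0 := hz _ (by simpa using key (Sum.inr 1) (Sum.inl 0))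
  have e8 : h.1 (Sum.inr 1) (Sum.inr 0) = 0 := hz _ (by simpa using key (Sum.inr 1) (Sum.inr 0))
  have hm := (sp_mem h.1).1 h.2
  have d1 : h.1 (Sum.inl 0) (Sum.inl 0) * h.1 (Sum.inr 0) (Sum.inr 0) - h.1 (Sum.inl 0) (Sum.inr 0) * h.1 (Sum.inr 0) (Sum.inl 0) = 1 := by
    have := hm (Sum.inl 0) (Sum.inr 0)
    rw [e1, e2] at this
    simp [Matrix.J] at this
    linear_combination -this
  have d2 : h.1 (Sum.inl 1) (Sum.inl 1) * h.1 (Sum.inr 1) (Sum.inr 1) - h.1 (Sum.inl 1) (Sum.inr 1) * h.1 (Sum.inr 1) (Sum.inl 1) = 1 := by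
    have := hm (Sum.inl 1) (Sum.inr 1)
    rw [e3, e4] at this
    simp [Matrix.J] at this
    linear_combination -this
  refine ⟨mkS _ _ _ _ d1, mkS _ _ _ _ d2, ?_⟩
  apply sp_ext
  intro p r
  rw [iH_val]
  rcases p with p | p <;> rcases r with r | r <;> fin_cases p <;> fin_cases r <;> simp [iM, e1, e2, e3, e4, e5, e6, e7, e8]

theorem sp_one (p r : Fin 2 ⊕ Fin 2) : (1 : S4 F).1 p r = if p = r then 1 else 0 := by
  show (1 : M4 F) p r = _
  rw [Matrix.one_apply]

set_option maxHeartbeats 4000000 in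
theorem w4 [Fintype F] (h2 : (2 : F) ≠ 0) (hF : Fintype.card F % 2 = 1) (a b : F) (hab : a * a + b * b = -1) :
    W4 (iH : S2 F × S2 F →* S4 F) (tH F) (zS F) (JS F) (wS a b hab) (oS h2 a b hab) ⟨s1M F, s1M_mem F h2⟩ ⟨s2M a b, s2M_mem h2 a b hab⟩ where
  inj := iH_inj
  t2 := by
    apply sp_ext; intro p r
    rw [sp_mul', sp_one]
    rcases p with p | p <;> rcases r with r | r <;> fin_cases p <;> fin_cases r <;> simp [tH, tM]
  tc := by
    intro x y
    apply sp_ext; intro p r
    rw [sp_mul', sp_mul']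
    simp only [iH_val]
    rcases p with p | p <;> rcases r with r | r <;> fin_cases p <;> fin_cases r <;> simp [tH, tM, iM]
  zc := S_zc
  z2 := S_z2
  z1 := S_z1 h2
  JJ := S_JJ
  ww := S_ww a b hab
  comm := S_comm
  inv := S_inv a b hab
  L1 := S_L1 h2
  L2 := S_L2 h2 hF
  L3 := fun c => S_L3 c h2
  L4 := S_L4 h2
  oJ := S_oJ h2 a b hab
  ow := S_ow h2 a b hab
  o3 := S_o3 h2 a b hab
  H1 := H1_aux h2
  H2 := by
    refine ⟨⟨kM F, kM_mem F h2⟩, ?_⟩
    rw [mul_inv_eq_iff_eq_mul]
    apply sp_ext; intro p r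
    rw [sp_mul', sp_mul']
    simp only [iH_val]
    rcases p with p | p <;> rcases r with r | r <;> fin_cases p <;> fin_cases r <;> simp [tH, tM, iM, kM, zS, sl2_one] <;> ring
  zz := by
    intro x
    apply sp_ext; intro p r
    rw [sp_mul', sp_mul']
    simp only [izz_val]
    rcases p with p | p <;> rcases r with r | r <;> fin_cases p <;> fin_cases r <;> simp
  s12 := by
    apply sp_ext; intro p r
    rw [sp_mul']
    simp only [iH_val]
    rcases p with p | p <;> rcases r with r | r <;> fin_cases p <;> fin_cases r <;> simp [s1M, s2M, iM, oS] <;> grind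
  s1o := by
    apply sp_ext; intro p r
    rw [sp_mul', sp_one]
    simp only [sp_mul']
    rcases p with p | p <;> rcases r with r | r <;> fin_cases p <;> fin_cases r <;> simp [s1M] <;> grind
  s2o := by
    apply sp_ext; intro p r
    rw [sp_mul', sp_one]
    simp only [sp_mul']
    rcases p with p | p <;> rcases r with r | r <;> fin_cases p <;> fin_cases r <;> simp [s2M] <;> grind
  s1J := by
    apply sp_ext; intro p r
    rw [sp_mul', sp_mul']
    simp only [iH_val]
    rcases p with p | p <;> rcases r with r | r <;> fin_cases p <;> fin_cases r <;> simp [s1M, iM, JS] <;> grind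
  s1w := by
    apply sp_ext; intro p r
    rw [sp_mul', sp_mul']
    simp only [iH_val]
    rcases p with p | p <;> rcases r with r | r <;> fin_cases p <;> fin_cases r <;> simp [s1M, iM, JS, wS, sl2_mul] <;> grind
  s1t := by
    apply sp_ext; intro p r
    rw [sp_mul', sp_mul']
    simp only [iH_val]
    rcases p with p | p <;> rcases r with r | r <;> fin_cases p <;> fin_cases r <;> simp [s1M, iM, tH, tM, zS, sl2_one] <;> grind
  s1z := by
    apply sp_ext; intro p r
    rw [sp_mul', sp_mul']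
    simp only [iH_val, sp_mul']
    rcases p with p | p <;> rcases r with r | r <;> fin_cases p <;> fin_cases r <;> simp [s1M, iM, tH, tM, zS, sl2_one] <;> grind
  s2w := by
    apply sp_ext; intro p r
    rw [sp_mul', sp_mul']
    simp only [iH_val]
    rcases p with p | p <;> rcases r with r | r <;> fin_cases p <;> fin_cases r <;> simp [s2M, iM, wS] <;> grind
  s2J := by
    apply sp_ext; intro p r
    rw [sp_mul', sp_mul']
    simp only [iH_val]
    rcases p with p | p <;> rcases r with r | r <;> fin_cases p <;> fin_cases r <;> simp [s2M, iM, JS, wS, sl2_mul] <;> grind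
  s2t := by
    apply sp_ext; intro p r
    rw [sp_mul', sp_mul']
    simp only [iH_val]
    rcases p with p | p <;> rcases r with r | r <;> fin_cases p <;> fin_cases r <;> simp [s2M, iM, tH, tM, zS, sl2_one] <;> grind
  s2z := by
    apply sp_ext; intro p r
    rw [sp_mul', sp_mul']
    simp only [iH_val]
    rcases p with p | p <;> rcases r with r | r <;> fin_cases p <;> fin_cases r <;> simp [s2M, iM, tH, tM, zS, sl2_one] <;> grind

end sp4

end CfsgLib.Wrx
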