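import Mathlib

/-! weights of a finite abelian subgroup on a complex representation (helper26) -/
set_option autoImplicit false
set_option linter.unusedSectionVars false

namespace CfsgLib.Wt

open Module

variable {G V M : Type*} [Group G] [AddCommGroup V] [Module ℂ V] [AddCommGroup M]

theorem rho_cancel (ρ : Representation ℂ G V) (g : G) (v : V) : ρ g (ρ g⁻¹ v) = v := by
  rw [← Module.End.mul_apply, ← map_mul, mul_inv_cancel, map_one]
  rfl

theorem rho_cancel' (ρ : Representation ℂ G V) (g : G) (v : V) : ρ g⁻¹ (ρ g v) = v := by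
  rw [← Module.End.mul_apply, ← map_mul, inv_mul_cancel, map_one]
  rfl

/-- the weight space of the character `χ` of `M` -/
def wt (ρ : Representation ℂ G V) (j : Multiplicative M →* G) (χ : AddChar M ℂ) : Submodule ℂ V where
  carrier := {v | ∀ m, ρ (j (Multiplicative.ofAdd m)) v = χ m • v}
  add_mem' {a b} ha hb := fun m => by rw [map_add, ha m, hb m, smul_add]
  zero_mem' := fun m => by rw [map_zero, smul_zero]
  smul_mem' c v hv := fun m => by rw [map_smul, hv m, smul_comm]

theorem mem_wt {ρ : Representation ℂ G V} {j : Multiplicative M →* G} {χ : AddChar M ℂ} {v : V} :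
    v ∈ wt ρ j χ ↔ ∀ m, ρ (j (Multiplicative.ofAdd m)) v = χ m • v := Iff.rfl

section fin

variable [Fintype M] (ρ : Representation ℂ G V) (j : Multiplicative M →* G)

/-- the projection on the weight space -/
noncomputable def pr (χ : AddChar M ℂ) : V →ₗ[ℂ] V :=
  (Fintype.card M : ℂ)⁻¹ • ∑ m, χ (-m) • ρ (j (Multiplicative.ofAdd m))

theorem pr_apply (χ : AddChar M ℂ) (v : V) :
    pr ρ j χ v = (Fintype.card M : ℂ)⁻¹ • ∑ m, χ (-m) • ρ (j (Multiplicative.ofAdd m)) v := by
  rw [pr, LinearMap.smul_apply, LinearMap.sum_apply]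
  rfl

theorem pr_mem (χ : AddChar M ℂ) (v : V) : pr ρ j χ v ∈ wt ρ j χ := by
  intro m
  rw [pr_apply, map_smul, map_sum, smul_comm (χ m) (Fintype.card M : ℂ)⁻¹]
  congr 1
  rw [Finset.smul_sum]
  refine Fintype.sum_equiv (Equiv.addLeft m) _ _ fun x => ?_
  rw [map_smul, Equiv.coe_addLeft, smul_smul, ofAdd_add, map_mul, map_mul]
  have : χ (-x) = χ m * χ (-(m + x)) := by
    rw [← AddChar.map_add_eq_mul]
    congr 1
    abel
  rw [this, Module.End.mul_apply]

theorem pr_of_mem (χ χ' : AddChar M ℂ) {v : V} (hv : v ∈ wt ρ j χ') [Decidable (χ = χ')] :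
    pr ρ j χ v = if χ = χ' then v else 0 := by
  rw [pr_apply]
  have h1 : ∀ m, χ (-m) • ρ (j (Multiplicative.ofAdd m)) v = ((χ' - χ) m) • v := by
    intro m
    rw [hv m, smul_smul, AddChar.sub_apply', mul_comm, AddChar.map_neg_eq_inv]
    rfl
  rw [Finset.sum_congr rfl fun m _ => h1 m, ← Finset.sum_smul]
  classical
  rw [AddChar.sum_eq_ite]
  have hc : (Fintype.card M : ℂ) ≠ 0 := Nat.cast_ne_zero.mpr Fintype.card_ne_zero
  by_cases h : χ = χ'
  · rw [if_pos h, if_pos (by rw [h, sub_self]), smul_smul, inv_mul_cancel₀ hc, one_smul]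
  · rw [if_neg h, if_neg (fun h' => h (sub_eq_zero.mp h').symm), zero_smul, smul_zero]

theorem sum_pr (v : V) : ∑ χ : AddChar M ℂ, pr ρ j χ v = v := by
  classical
  simp only [pr_apply]
  rw [← Finset.smul_sum, Finset.sum_comm]
  have h1 : ∀ m : M, ∑ χ : AddChar M ℂ, χ (-m) • ρ (j (Multiplicative.ofAdd m)) v =
      if m = 0 then (Fintype.card M : ℂ) • v else 0 := by
    intro m
    rw [← Finset.sum_smul, AddChar.sum_apply_eq_ite]
    by_cases h : m = 0
    · rw [if_pos h, if_pos (by rw [h, neg_zero]), h, ofAdd_zero, map_one, map_one]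
      rfl
    · rw [if_neg h, if_neg (by rwa [neg_eq_zero]), zero_smul]
  rw [Finset.sum_congr rfl fun m _ => h1 m, Finset.sum_ite_eq' Finset.univ (0 : M), if_pos (Finset.mem_univ _)]
  have hc : (Fintype.card M : ℂ) ≠ 0 := Nat.cast_ne_zero.mpr Fintype.card_ne_zero
  rw [smul_smul, inv_mul_cancel₀ hc, one_smul]

theorem sum_finrank_le [FiniteDimensional ℂ V] (s : Finset (AddChar M ℂ)) :
    ∑ χ ∈ s, finrank ℂ (wt ρ j χ) ≤ finrank ℂ V := by
  classical
  let Φ : (∀ χ : s, wt ρ j (χ : AddChar M ℂ)) →ₗ[ℂ] V :=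
    { toFun := fun x => ∑ χ : s, (x χ : V)
      map_add' := fun x y => by simp [Finset.sum_add_distrib]
      map_smul' := fun c x => by simp [Finset.smul_sum] }
  have hinj : Function.Injective Φ := by
    rw [← LinearMap.ker_eq_bot, LinearMap.ker_eq_bot']
    intro x hx
    funext χ
    have h1 : pr ρ j (χ : AddChar M ℂ) (Φ x) = (x χ : V) := by
      change pr ρ j (χ : AddChar M ℂ) (∑ χ' : s, (x χ' : V)) = _
      rw [map_sum, Finset.sum_eq_single χ]
      · rw [pr_of_mem ρ j _ _ (x χ).2, if_pos rfl]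
      · intro χ' _ hne
        rw [pr_of_mem ρ j _ _ (x χ').2, if_neg (fun h => hne (Subtype.ext h).symm)]
      · intro h; exact absurd (Finset.mem_univ _) h
    rw [hx, map_zero] at h1
    exact Subtype.ext h1.symm
  have h2 := LinearMap.finrank_le_finrank_of_injective hinj
  rw [Module.finrank_pi_fintype] at h2
  rwa [Finset.sum_coe_sort s (fun χ => finrank ℂ (wt ρ j χ))] at h2

/-- if every weight is at least `d`-dimensional -/
theorem mul_card_le [FiniteDimensional ℂ V] (s : Finset (AddChar M ℂ)) (d : ℕ)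
    (h : ∀ χ ∈ s, d ≤ finrank ℂ (wt ρ j χ)) : d * s.card ≤ finrank ℂ V := by
  refine le_trans ?_ (sum_finrank_le ρ j s)
  rw [mul_comm, ← smul_eq_mul]
  exact Finset.card_nsmul_le_sum s _ d h

theorem card_le [FiniteDimensional ℂ V] (s : Finset (AddChar M ℂ)) (h : ∀ χ ∈ s, wt ρ j χ ≠ ⊥) :
    s.card ≤ finrank ℂ V := by
  have := mul_card_le ρ j s 1 (fun χ hχ => by
    have := h χ hχ
    rw [Nat.one_le_iff_ne_zero]
    intro h0
    exact this (Submodule.finrank_eq_zero.mp h0))
  omega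

/-- an element of `M` killed by all the weights acts trivially -/
theorem apply_eq_of_forall (m : M) (h : ∀ χ : AddChar M ℂ, wt ρ j χ ≠ ⊥ → χ m = 1) :
    ρ (j (Multiplicative.ofAdd m)) = 1 := by
  ext1 v
  conv_lhs => rw [← sum_pr ρ j v]
  conv_rhs => rw [← sum_pr ρ j v]
  rw [map_sum, map_sum]
  refine Finset.sum_congr rfl fun χ _ => ?_
  have h1 := pr_mem ρ j χ v
  rw [h1 m]
  by_cases h2 : wt ρ j χ = ⊥
  · rw [h2, Submodule.mem_bot] at h1
    rw [h1, smul_zero, map_zero]
  · rw [h χ h2, one_smul]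
    rfl

end fin

/-- normalising elements permute the weight spaces -/
theorem finrank_wt_comp (ρ : Representation ℂ G V) (j : Multiplicative M →* G) (g : G) (α : M ≃+ M)
    (h : ∀ m, g * j (Multiplicative.ofAdd m) * g⁻¹ = j (Multiplicative.ofAdd (α m))) (χ : AddChar M ℂ) :
    finrank ℂ (wt ρ j (χ.compAddMonoidHom α.toAddMonoidHom)) = finrank ℂ (wt ρ j χ) := by
  have hmaps : ∀ v, ρ g⁻¹ v ∈ wt ρ j (χ.compAddMonoidHom α.toAddMonoidHom) ↔ v ∈ wt ρ j χ := by
    intro v
    have key : ∀ m, ρ (j (Multiplicative.ofAdd m)) (ρ g⁻¹ v) = ρ g⁻¹ (ρ (j (Multiplicative.ofAdd (α m))) v) := by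
      intro m
      rw [← Module.End.mul_apply, ← map_mul, ← Module.End.mul_apply, ← map_mul, ← h m]
      congr 2
      group
    constructor
    · intro hv m
      have h1 := hv (α.symm m)
      rw [key, AddEquiv.apply_symm_apply, AddChar.compAddMonoidHom_apply] at h1
      have h2 := congrArg (ρ g) h1
      rw [map_smul, rho_cancel, rho_cancel] at h2
      simpa using h2
    · intro hv m
      rw [key, hv (α m), map_smul]
      rfl
  let e : V ≃ₗ[ℂ] V := LinearEquiv.ofLinearMap (ρ g⁻¹) (ρ g) (by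
      ext v; rw [LinearMap.comp_apply, rho_cancel']; rfl) (by
      ext v; rw [LinearMap.comp_apply, rho_cancel]; rfl)
  have hmap : (wt ρ j χ).map (e : V →ₗ[ℂ] V) = wt ρ j (χ.compAddMonoidHom α.toAddMonoidHom) := by
    ext w
    constructor
    · rintro ⟨v, hv, rfl⟩
      exact (hmaps v).mpr hv
    · intro hw
      refine ⟨e.symm w, ?_, e.apply_symm_apply w⟩
      refine (hmaps _).mp ?_
      have : ρ g⁻¹ (e.symm w) = w := e.apply_symm_apply w
      rwa [this]
  rw [← hmap]
  exact LinearEquiv.finrank_map_eq e _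

theorem wt_comp_ne_bot (ρ : Representation ℂ G V) (j : Multiplicative M →* G) (g : G) (α : M →+ M)
    (h : ∀ m, g * j (Multiplicative.ofAdd m) * g⁻¹ = j (Multiplicative.ofAdd (α m))) (χ : AddChar M ℂ)
    (hχ : wt ρ j χ ≠ ⊥) : wt ρ j (χ.compAddMonoidHom α) ≠ ⊥ := by
  obtain ⟨v, hv, hv0⟩ := Submodule.exists_mem_ne_zero_of_ne_bot hχ
  intro hbot
  have h1 : ρ g⁻¹ v ∈ wt ρ j (χ.compAddMonoidHom α) := by
    intro m
    have key : ρ (j (Multiplicative.ofAdd m)) (ρ g⁻¹ v) = ρ g⁻¹ (ρ (j (Multiplicative.ofAdd (α m))) v) := by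
      rw [← Module.End.mul_apply, ← map_mul, ← Module.End.mul_apply, ← map_mul, ← h m]
      congr 2
      group
    rw [key, hv (α m), map_smul]
    rfl
  rw [hbot, Submodule.mem_bot] at h1
  have h2 := congrArg (ρ g) h1
  rw [rho_cancel, map_zero] at h2
  exact hv0 h2

end CfsgLib.Wt
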