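import Cfsg.Agent.LibWt9
import Cfsg.Agent.LibWt6
import Cfsg.Agent.LibUn29d
import Cfsg.Agent.LibH22Un4

/-! degrees of representations of SU_n: frames (helper26) -/
set_option autoImplicit false
set_option linter.unusedSectionVars false

namespace CfsgLib.WtU

open Matrix Module CfsgLib.Wt CfsgLib.WtQ CfsgLib.WtH CfsgLib.WtSp

variable {l p : Type} [Fintype l] [DecidableEq l] [Fintype p] [DecidableEq p] {F : Type*} [Field F] {σ : F ≃+* F}

def fM (l p : Type) [DecidableEq l] (α β : F) {n : ℕ} (e : Fin n ≃ (l × Fin 2) ⊕ p) : Matrix (Fin n) l F := fun i j =>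
  match e i with
  | Sum.inl (k, s) => if k = j then (if s = 0 then α else β) else 0
  | Sum.inr _ => 0

def fD (l p : Type) [DecidableEq p] (F : Type*) [Field F] {n : ℕ} (e : Fin n ≃ (l × Fin 2) ⊕ p) : Matrix (Fin n) p F := fun i j =>
  match e i with
  | Sum.inl _ => 0
  | Sum.inr k => if k = j then 1 else 0

theorem ad_fM_mul (α β α' β' : F) {n : ℕ} (e : Fin n ≃ (l × Fin 2) ⊕ p) :
    ad σ (fM l p α β e) * fM l p α' β' e = (σ α * α' + σ β * β') • (1 : Matrix l l F) := by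
  ext i j
  rw [Matrix.mul_apply, ← Equiv.sum_comp e.symm]
  simp only [ad_apply, fM, Equiv.apply_symm_apply, Fintype.sum_sum_type, Fintype.sum_prod_type, Fin.sum_univ_two]
  simp only [Matrix.smul_apply, Matrix.one_apply, smul_eq_mul]
  rw [Finset.sum_eq_single i]
  · by_cases h : i = j
    · subst h; simp
    · simp [h]
  · intro k _ hk
    simp [hk]
  · intro h; exact absurd (Finset.mem_univ _) h

theorem ad_fD_mul_fM (α β : F) {n : ℕ} (e : Fin n ≃ (l × Fin 2) ⊕ p) :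
    ad σ (fD l p F e) * fM l p α β e = 0 := by
  ext i j
  rw [Matrix.mul_apply, ← Equiv.sum_comp e.symm]
  simp only [ad_apply, fM, fD, Equiv.apply_symm_apply, Fintype.sum_sum_type]
  simp

theorem ad_fD_mul {n : ℕ} (e : Fin n ≃ (l × Fin 2) ⊕ p) :
    ad σ (fD l p F e) * fD l p F e = 1 := by
  ext i j
  rw [Matrix.mul_apply, ← Equiv.sum_comp e.symm]
  simp only [ad_apply, fD, Equiv.apply_symm_apply, Fintype.sum_sum_type]
  simp [Matrix.one_apply, eq_comm]

theorem exists_frame (hσ2 : ∀ x, σ (σ x) = x) {α t : F} (hα : α * σ α = -1) (ht : t + σ t = -1) {n : ℕ}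
    (e : Fin n ≃ (l × Fin 2) ⊕ p) : ∃ (M N : Matrix (Fin n) l F) (D : Matrix (Fin n) p F), Frame σ M N D := by
  refine ⟨fM l p 1 α e, fM l p (1 + t) (t * α) e, fD l p F e, hσ2, ?_, ?_, ?_, ad_fD_mul e, ad_fD_mul_fM _ _ e, ad_fD_mul_fM _ _ e⟩
  · rw [ad_fM_mul, map_one, one_mul, mul_comm, hα, add_neg_cancel, zero_smul]
  · rw [ad_fM_mul, map_add, map_one, map_mul]
    have : (1 + σ t) * (1 + t) + σ t * σ α * (t * α) = 0 := by
      linear_combination (σ t * t) * hα + ht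
    rw [this, zero_smul]
  · rw [ad_fM_mul, map_add, map_one, map_mul]
    have : (1 + σ t) * 1 + σ t * σ α * α = 1 := by
      linear_combination (σ t) * hα
    rw [this, one_smul]

variable {n : ℕ} {M N : Matrix (Fin n) l F} {D : Matrix (Fin n) p F}

theorem Frame.swap (h : Frame σ M N D) : Frame σ N M D := ⟨h.hσ2, h.NN, h.MM, h.MN, h.DD, h.DN, h.DM⟩

theorem out_mul_out (x y z w : l → F) : out σ x y * out σ z w = ((fun i => σ (y i)) ⬝ᵥ z) • out σ x w := by
  unfold out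
  rw [vecMulVec_mul_vecMulVec, vecMulVec_smul]

theorem jU_not_center {q : ℕ} (hσ : ∀ x, σ x = x ^ q) (h : Frame σ M N D) {κ : F} (hκ : σ κ = -κ) (hκ0 : κ ≠ 0)
    (H : HermG l σ) (hH : (H : Matrix l l F) * (H : Matrix l l F) ≠ 0) :
    jU hσ h hκ (Multiplicative.ofAdd H) ∉ Subgroup.center (Cfsg.SU n F q) := by
  intro hc
  have h1 := (Subgroup.mem_center_iff.mp hc) (jU hσ h.swap hκ (Multiplicative.ofAdd H))
  have h2 := congrArg su h1
  rw [su_mul, su_mul, su_jU, su_jU] at h2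
  unfold tH at h2
  set K := (H : Matrix l l F) with hK
  have e1 : (1 + κ • (N * K * ad σ N)) * (1 + κ • (M * K * ad σ M)) =
      1 + κ • (N * K * ad σ N) + κ • (M * K * ad σ M) + (κ * κ) • (N * (K * K) * ad σ M) := by
    rw [mul_add, mul_one, add_mul, one_mul, Matrix.smul_mul, Matrix.mul_smul, smul_smul]
    have : N * K * ad σ N * (M * K * ad σ M) = N * (K * K) * ad σ M := by
      calc N * K * ad σ N * (M * K * ad σ M) = N * K * (ad σ N * M) * (K * ad σ M) := by simp only [Matrix.mul_assoc]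
        _ = _ := by rw [h.NM, Matrix.mul_one]; simp only [Matrix.mul_assoc]
    rw [this]; abel
  have e2 : (1 + κ • (M * K * ad σ M)) * (1 + κ • (N * K * ad σ N)) =
      1 + κ • (N * K * ad σ N) + κ • (M * K * ad σ M) + (κ * κ) • (M * (K * K) * ad σ N) := by
    rw [mul_add, mul_one, add_mul, one_mul, Matrix.smul_mul, Matrix.mul_smul, smul_smul]
    have : M * K * ad σ M * (N * K * ad σ N) = M * (K * K) * ad σ N := by
      calc M * K * ad σ M * (N * K * ad σ N) = M * K * (ad σ M * N) * (K * ad σ N) := by simp only [Matrix.mul_assoc]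
        _ = _ := by rw [h.MN, Matrix.mul_one]; simp only [Matrix.mul_assoc]
    rw [this]; abel
  rw [e1, e2] at h2
  have h3 := add_left_cancel h2
  have h4 : N * (K * K) * ad σ M = M * (K * K) * ad σ N := by
    have h5 := congrArg (fun X => (κ * κ)⁻¹ • X) h3
    simpa [smul_smul, inv_mul_cancel₀ (mul_ne_zero hκ0 hκ0), hκ0] using h5
  have h5 : ad σ M * (N * (K * K) * ad σ M) * N = ad σ M * (M * (K * K) * ad σ N) * N := by rw [h4]
  have e3 : ad σ M * (N * (K * K) * ad σ M) * N = K * K := by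
    calc ad σ M * (N * (K * K) * ad σ M) * N = (ad σ M * N) * (K * K) * (ad σ M * N) := by simp only [Matrix.mul_assoc]
      _ = _ := by rw [h.MN, Matrix.one_mul, Matrix.mul_one]
  have e4 : ad σ M * (M * (K * K) * ad σ N) * N = 0 := by
    calc ad σ M * (M * (K * K) * ad σ N) * N = (ad σ M * M) * ((K * K) * (ad σ N * N)) := by simp only [Matrix.mul_assoc]
      _ = _ := by rw [h.MM, Matrix.zero_mul]
  rw [e3, e4] at h5
  exact hH h5

variable [Fintype F]

theorem su_quasi {q : ℕ} (hF : Fintype.card F = q ^ 2) (hn : 3 ≤ n) (h32 : ¬ (n = 3 ∧ q = 2)) :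
    Cfsg.IsQuasisimple (Cfsg.SU n F q) :=
  ⟨⟨Cfsg.Agent.H22.su_perfect hF hn h32⟩, Cfsg.Agent.H22.psu_simple hF hn h32⟩

/-- the general bound -/
theorem su_bound {q : ℕ} (hF : Fintype.card F = q ^ 2) (hn : 3 ≤ n) (h32 : ¬ (n = 3 ∧ q = 2)) (hl : 1 ≤ Fintype.card l)
    (hσ : ∀ x, σ x = x ^ q) (h : Frame σ M N D) {κ : F} (hκ : σ κ = -κ) (hκ0 : κ ≠ 0)
    (hnorm : ∀ c : F, σ c = c → ∃ y : F, y * σ y = c) {τ : F} (hτ : τ + σ τ = 1)
    (hp : Fintype.card p = 1 ∨ 2 ≤ Fintype.card l)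
    {V : Type*} [AddCommGroup V] [Module ℂ V] [FiniteDimensional ℂ V]
    (ρ : Representation ℂ (Cfsg.SU n F q) V) (hirr : ρ.IsIrreducible) (h2 : 2 ≤ finrank ℂ V)
    (d : ℕ) (hd : ∀ χ : AddChar (HermG l σ) ℂ, wt ρ (jU hσ h hκ) χ ≠ ⊥ → (∃ x a, χ (rk h.hσ2 x x a) ≠ 1) →
      d ≤ finrank ℂ (wt ρ (jU hσ h hκ) χ)) :
    ∃ N : ℕ, (q ^ 2) ^ Fintype.card l - 1 ≤ (q + 1) * N ∧ d * N ≤ finrank ℂ V := by
  classical
  have hq := su_quasi (n := n) hF hn h32
  obtain ⟨i⟩ : Nonempty l := Fintype.card_pos_iff.mp (by omega)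
  have hne : ∃ x a, ρ (jU hσ h hκ (Multiplicative.ofAdd (rk h.hσ2 x x a))) ≠ 1 := by
    refine ⟨Pi.single i 1, τ, rep_ne_one hq ρ hirr h2 (jU_not_center hσ h hκ hκ0 _ ?_)⟩
    rw [rk_val, ← add_smul, hτ, one_smul, out_mul_out]
    intro h0
    have := congrFun (congrFun h0 i) i
    simp [out, vecMulVec_apply] at this
  rcases hp with hp | hp
  · obtain ⟨e⟩ := Fintype.card_eq_one_iff_nonempty_unique.mp hp
    refine weightsU h.hσ2 hF hσ hnorm hτ hl ρ (jU hσ h hκ) Set.univ (fun A _ => ?_) (fun x u hx hu => ?_) (fun a x hax => ?_)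
      d hd hne
    · have hA : (A : Matrix l l F).det ≠ 0 := ((Matrix.isUnit_iff_isUnit_det (A : Matrix l l F)).mp A.isUnit).ne_zero
      have hsA : σ (A : Matrix l l F).det ≠ 0 := (map_ne_zero σ).mpr hA
      refine exists_levi hσ h hκ A ((σ (A : Matrix l l F).det / (A : Matrix l l F).det) • 1) ?_ ?_
      · rw [ad_smul, ad_one, Matrix.smul_mul, Matrix.one_mul, smul_smul, map_div₀, h.hσ2]
        rw [show (A : Matrix l l F).det / σ (A : Matrix l l F).det * (σ (A : Matrix l l F).det / (A : Matrix l l F).det) = 1 by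
          field_simp, one_smul]
      · rw [det_smul, det_one, hp, pow_one, mul_one]
        field_simp
    · obtain ⟨A, hA⟩ := exists_move hx hu
      exact ⟨A, Set.mem_univ _, hA⟩
    · obtain ⟨A, -, hA⟩ := exists_T' a x hax
      exact ⟨A, Set.mem_univ _, hA⟩
  · refine weightsU h.hσ2 hF hσ hnorm hτ hl ρ (jU hσ h hκ) {A | (A : Matrix l l F).det = 1} (fun A hA => ?_)
      (fun x u hx hu => exists_move_sl hp hx hu) (fun a x hax => exists_T' a x hax) d hd hne
    have hA' : (A : Matrix l l F).det = 1 := hA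
    refine exists_levi hσ h hκ A 1 ?_ ?_
    · rw [ad_one, Matrix.one_mul]
    · rw [hA', det_one, one_mul, map_one]

theorem su_even {q r : ℕ} (hn : 4 ≤ n) (hr : n = 2 * r) (hF : Fintype.card F = q ^ 2)
    {V : Type*} [AddCommGroup V] [Module ℂ V] [FiniteDimensional ℂ V]
    (ρ : Representation ℂ (Cfsg.SU n F q) V) (hirr : ρ.IsIrreducible) (h2 : 2 ≤ finrank ℂ V) :
    q ^ n - 1 ≤ (q + 1) * finrank ℂ V := by
  obtain ⟨σ, hσ, hf⟩ := CfsgLib.Un29.hermForm_unitary (F := F) n hF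
  obtain ⟨κ, hκ0, hκ⟩ := CfsgLib.Un29.exists_skew hf
  obtain ⟨τ, hτ⟩ := CfsgLib.Un29.exists_trace_one hf
  obtain ⟨α, hα⟩ := CfsgLib.Un29.exists_norm hf (-1) (by rw [map_neg, map_one])
  have ht : (-τ) + σ (-τ) = -1 := by rw [map_neg]; linear_combination -hτ
  have e : Fin n ≃ (Fin r × Fin 2) ⊕ Fin 0 := Fintype.equivOfCardEq (by simp [hr, mul_comm])
  obtain ⟨M, N, D, h⟩ := exists_frame hf.involutive hα ht e
  obtain ⟨N', h1, h3⟩ := su_bound hF (by omega) (by omega) (by simp; omega) hσ h hκ hκ0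
    (fun c hc => CfsgLib.Un29.exists_norm hf c hc) hτ (Or.inr (by simp; omega)) ρ hirr h2 1 (fun χ hχ _ => by
      rw [Nat.one_le_iff_ne_zero]
      intro h0
      exact hχ (Submodule.finrank_eq_zero.mp h0))
  rw [Fintype.card_fin, ← pow_mul, ← hr] at h1
  rw [one_mul] at h3
  exact h1.trans (Nat.mul_le_mul_left _ h3)

end CfsgLib.WtU
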