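import Cfsg.Agent.LibWt10

/-! degrees of representations of SU_n, n odd: the extraspecial part (helper26) -/
set_option autoImplicit false
set_option linter.unusedSectionVars false

namespace CfsgLib.WtU

open Matrix Module CfsgLib.Wt CfsgLib.WtQ CfsgLib.WtH CfsgLib.WtSp

/-- commuting operators have a common eigenvector -/
theorem exists_common_eigen {V ι : Type*} [AddCommGroup V] [Module ℂ V] [FiniteDimensional ℂ V] (s : Finset ι)
    (T : ι → V →ₗ[ℂ] V) (hc : ∀ i ∈ s, ∀ j ∈ s, Commute (T i) (T j)) :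
    ∀ U : Submodule ℂ V, U ≠ ⊥ → (∀ i ∈ s, ∀ v ∈ U, T i v ∈ U) → ∃ v ∈ U, v ≠ 0 ∧ ∀ i ∈ s, ∃ c : ℂ, T i v = c • v := by
  classical
  induction s using Finset.induction_on with
  | empty =>
    intro U hU _
    obtain ⟨v, hv, hv0⟩ := Submodule.exists_mem_ne_zero_of_ne_bot hU
    exact ⟨v, hv, hv0, fun i hi => absurd hi (Finset.notMem_empty i)⟩
  | insert a s ha ih =>
    intro U hU hinv
    haveI : Nontrivial U := Submodule.nontrivial_iff_ne_bot.mpr hU
    let Ta : U →ₗ[ℂ] U := (T a).restrict (hinv a (Finset.mem_insert_self a s))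
    obtain ⟨c, hc'⟩ := Module.End.exists_eigenvalue Ta
    obtain ⟨w, hw⟩ := hc'.exists_hasEigenvector
    have hw1 : T a (w : V) = c • (w : V) := by
      have := hw.apply_eq_smul
      exact congrArg Subtype.val this
    let U' : Submodule ℂ V := U ⊓ LinearMap.ker (T a - c • 1)
    have hmem : ∀ v, v ∈ U' ↔ v ∈ U ∧ T a v = c • v := by
      intro v
      rw [Submodule.mem_inf, LinearMap.mem_ker, LinearMap.sub_apply, sub_eq_zero]
      rfl
    have hU' : U' ≠ ⊥ := by
      intro h
      have : (w : V) ∈ U' := (hmem _).mpr ⟨w.2, hw1⟩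
      rw [h, Submodule.mem_bot] at this
      exact hw.2 (Subtype.ext this)
    obtain ⟨v, hv, hv0, hvs⟩ := ih (fun i hi j hj => hc i (Finset.mem_insert_of_mem hi) j (Finset.mem_insert_of_mem hj)) U' hU'
      (fun i hi v hv => by
        rw [hmem] at hv ⊢
        refine ⟨hinv i (Finset.mem_insert_of_mem hi) v hv.1, ?_⟩
        have := hc a (Finset.mem_insert_self a s) i (Finset.mem_insert_of_mem hi)
        have h1 : T a (T i v) = T i (T a v) := LinearMap.congr_fun this v
        rw [h1, hv.2, map_smul])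
    rw [hmem] at hv
    refine ⟨v, hv.1, hv0, fun i hi => ?_⟩
    rcases Finset.mem_insert.mp hi with rfl | hi
    · exact ⟨c, hv.2⟩
    · exact hvs i hi

/-- joint eigenvectors for distinct eigenvalue functions are independent -/
theorem card_le_of_eigen {V ι κ : Type*} [AddCommGroup V] [Module ℂ V] [Fintype κ] (T : ι → V →ₗ[ℂ] V) (U : Submodule ℂ V)
    [FiniteDimensional ℂ U] (v : κ → V) (hv : ∀ k, v k ∈ U) (hv0 : ∀ k, v k ≠ 0) (θ : κ → ι → ℂ)
    (hT : ∀ k i, T i (v k) = θ k i • v k) (hd : ∀ k k', k ≠ k' → ∃ i, θ k i ≠ θ k' i) : Fintype.card κ ≤ finrank ℂ U := by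
  classical
  -- independence
  have hli : LinearIndependent ℂ v := by
    rw [Fintype.linearIndependent_iff]
    intro g hg k
    -- product operator
    have key : ∀ (s : Finset κ), k ∉ s → ∃ P : V →ₗ[ℂ] V, (∀ k' ∈ s, P (v k') = 0) ∧ (∃ c : ℂ, c ≠ 0 ∧ P (v k) = c • v k) ∧
        ∀ k', ∃ c : ℂ, P (v k') = c • v k' := by
      intro s
      induction s using Finset.induction_on with
      | empty =>
        intro _
        exact ⟨1, fun k' h => absurd h (Finset.notMem_empty k'), ⟨1, one_ne_zero, by rw [one_smul]; rfl⟩,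
          fun k' => ⟨1, by rw [one_smul]; rfl⟩⟩
      | insert b s hb ih =>
        intro hk
        rw [Finset.mem_insert, not_or] at hk
        obtain ⟨P, hP1, ⟨c, hc, hP2⟩, hP3⟩ := ih hk.2
        obtain ⟨i, hi⟩ := hd k b hk.1
        refine ⟨P ∘ₗ (T i - θ b i • 1), ?_, ?_, ?_⟩
        · intro k' hk'
          have h1 : (T i - θ b i • (1 : V →ₗ[ℂ] V)) (v k') = (θ k' i - θ b i) • v k' := by
            rw [LinearMap.sub_apply, hT, sub_smul]; rfl
          rw [LinearMap.comp_apply, h1, map_smul]
          rcases Finset.mem_insert.mp hk' with rfl | hk'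
          · rw [sub_self, zero_smul]
          · rw [hP1 k' hk', smul_zero]
        · refine ⟨(θ k i - θ b i) * c, mul_ne_zero (sub_ne_zero.mpr (hi)) hc, ?_⟩
          have h1 : (T i - θ b i • (1 : V →ₗ[ℂ] V)) (v k) = (θ k i - θ b i) • v k := by
            rw [LinearMap.sub_apply, hT, sub_smul]; rfl
          rw [LinearMap.comp_apply, h1, map_smul, hP2, smul_smul]
        · intro k'
          obtain ⟨c', hc'⟩ := hP3 k'
          refine ⟨(θ k' i - θ b i) * c', ?_⟩
          have h1 : (T i - θ b i • (1 : V →ₗ[ℂ] V)) (v k') = (θ k' i - θ b i) • v k' := by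
            rw [LinearMap.sub_apply, hT, sub_smul]; rfl
          rw [LinearMap.comp_apply, h1, map_smul, hc', smul_smul]
    obtain ⟨P, hP1, ⟨c, hc, hP2⟩, -⟩ := key (Finset.univ.erase k) (Finset.notMem_erase k _)
    have h2 := congrArg P hg
    rw [map_sum, map_zero, Finset.sum_eq_single k] at h2
    · rw [map_smul, hP2, smul_smul] at h2
      rcases smul_eq_zero.mp h2 with h3 | h3
      · rcases mul_eq_zero.mp h3 with h4 | h4
        · exact h4
        · exact absurd h4 hc
      · exact absurd h3 (hv0 k)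
    · intro k' _ hk'
      rw [map_smul, hP1 k' (Finset.mem_erase.mpr ⟨hk', Finset.mem_univ _⟩), smul_zero]
    · intro h; exact absurd (Finset.mem_univ _) h
  let w : κ → U := fun k => ⟨v k, hv k⟩
  have hw : LinearIndependent ℂ w := by
    have : v = U.subtype ∘ w := rfl
    rw [this] at hli
    exact LinearIndependent.of_comp _ hli
  exact hw.fintype_card_le_finrank

end CfsgLib.WtU
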