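import Cfsg.Agent.LibWt11

/-! degrees of representations of SU_n, n odd (helper26) -/
set_option autoImplicit false
set_option linter.unusedSectionVars false

namespace CfsgLib.WtU

open Matrix Module CfsgLib.Wt CfsgLib.WtQ CfsgLib.WtH CfsgLib.WtSp

variable {l : Type} [Fintype l] [DecidableEq l] {F : Type*} [Field F] {σ : F ≃+* F} {n : ℕ}
variable {x D : Matrix (Fin n) (Fin 1) F}

/-- Eichler elements -/
def SE (σ : F ≃+* F) (x D : Matrix (Fin n) (Fin 1) F) (a c : F) : Matrix (Fin n) (Fin n) F :=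
  1 + a • (x * ad σ D) - σ a • (D * ad σ x) + c • (x * ad σ x)

structure EP (σ : F ≃+* F) (x D : Matrix (Fin n) (Fin 1) F) : Prop where
  hσ2 : ∀ a, σ (σ a) = a
  xx : ad σ x * x = 0
  DD : ad σ D * D = 1
  Dx : ad σ D * x = 0

theorem EP.xD (h : EP σ x D) : ad σ x * D = 0 := by
  have := congrArg (ad σ) h.Dx
  rwa [ad_mul, ad_ad σ h.hσ2, ad_zero] at this

theorem SE_mul (h : EP σ x D) (a c b d : F) : SE σ x D a c * SE σ x D b d = SE σ x D (a + b) (c + d - a * σ b) := by
  have e : ∀ (P Q P' Q' : Matrix (Fin n) (Fin 1) F), P * ad σ Q * (P' * ad σ Q') = P * (ad σ Q * P') * ad σ Q' := by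
    intros; simp only [Matrix.mul_assoc]
  unfold SE
  simp only [add_mul, mul_add, sub_mul, mul_sub, one_mul, mul_one, Matrix.smul_mul, Matrix.mul_smul, smul_smul, e, h.xx,
    h.DD, h.Dx, h.xD, Matrix.mul_zero, Matrix.zero_mul, smul_zero, map_add, add_smul, sub_smul]
  rw [Matrix.mul_one, mul_comm (σ b) a]
  abel

theorem SE_ad (h : EP σ x D) (a c : F) : ad σ (SE σ x D a c) = SE σ x D (-a) (σ c) := by
  unfold SE
  rw [ad_add, ad_sub, ad_add, ad_one, ad_smul, ad_smul, ad_smul, ad_mul, ad_mul, ad_mul, ad_ad σ h.hσ2, ad_ad σ h.hσ2,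
    h.hσ2, map_neg, neg_smul, neg_smul]
  abel

theorem SE_zero : SE σ x D 0 0 = 1 := by
  simp [SE]

theorem SE_det (h : EP σ x D) (a c : F) : (SE σ x D a c).det = 1 := by
  have h1 : SE σ x D a c = 1 + fromCols x D * fromRows (a • ad σ D + c • ad σ x) (-(σ a • ad σ x)) := by
    rw [fromCols_mul_fromRows]
    unfold SE
    rw [Matrix.mul_add, Matrix.mul_neg]
    simp only [Matrix.mul_smul]
    abel
  rw [h1, Matrix.det_one_add_mul_comm, fromRows_mul_fromCols]
  have e1 : (a • ad σ D + c • ad σ x) * x = 0 := by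
    rw [Matrix.add_mul, Matrix.smul_mul, Matrix.smul_mul, h.Dx, h.xx, smul_zero, smul_zero, add_zero]
  have e2 : (a • ad σ D + c • ad σ x) * D = a • 1 := by
    rw [Matrix.add_mul, Matrix.smul_mul, Matrix.smul_mul, h.DD, h.xD, smul_zero, add_zero]
  have e3 : (-(σ a • ad σ x)) * x = 0 := by
    rw [Matrix.neg_mul, Matrix.smul_mul, h.xx, smul_zero, neg_zero]
  have e4 : (-(σ a • ad σ x)) * D = 0 := by
    rw [Matrix.neg_mul, Matrix.smul_mul, h.xD, smul_zero, neg_zero]
  rw [e1, e2, e3, e4, ← fromBlocks_one, fromBlocks_add]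
  simp

variable {M N : Matrix (Fin n) l F} {D : Matrix (Fin n) (Fin 1) F}

/-- a column -/
def col1 (u : l → F) : Matrix l (Fin 1) F := fun i _ => u i

theorem col1_mul (u : l → F) : col1 u * ad σ (col1 u) = out σ u u := by
  ext i j
  simp [Matrix.mul_apply, col1, ad_apply, out, vecMulVec_apply]

theorem Frame.EP (h : Frame σ M N D) (u : l → F) : EP σ (M * col1 u) D := by
  refine ⟨h.hσ2, ?_, h.DD, ?_⟩
  · rw [ad_mul]
    calc ad σ (col1 u) * ad σ M * (M * col1 u) = ad σ (col1 u) * ((ad σ M * M) * col1 u) := by simp only [Matrix.mul_assoc]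
      _ = 0 := by rw [h.MM, Matrix.zero_mul, Matrix.mul_zero]
  · rw [← Matrix.mul_assoc, h.DM, Matrix.zero_mul]

theorem tH_comm (h : Frame σ M N D) (u : l → F) (κ : F) (H : Matrix l l F) (a c : F) :
    tH M κ σ H * SE σ (M * col1 u) D a c = SE σ (M * col1 u) D a c * tH M κ σ H := by
  have hx : ad σ M * (M * col1 u) = 0 := by rw [← Matrix.mul_assoc, h.MM, Matrix.zero_mul]
  have hx' : ad σ (M * col1 u) * M = 0 := by
    rw [ad_mul, Matrix.mul_assoc, h.MM, Matrix.mul_zero]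
  have z1 : (M * H * ad σ M) * SE σ (M * col1 u) D a c = M * H * ad σ M := by
    unfold SE
    rw [mul_add, mul_sub, mul_add, mul_one, Matrix.mul_smul, Matrix.mul_smul, Matrix.mul_smul]
    have f1 : ∀ Q : Matrix (Fin n) (Fin 1) F, M * H * ad σ M * (M * col1 u * ad σ Q) = 0 := by
      intro Q
      calc M * H * ad σ M * (M * col1 u * ad σ Q) = M * H * ((ad σ M * (M * col1 u)) * ad σ Q) := by simp only [Matrix.mul_assoc]
        _ = 0 := by rw [hx, Matrix.zero_mul, Matrix.mul_zero]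
    have f2 : M * H * ad σ M * (D * ad σ (M * col1 u)) = 0 := by
      calc M * H * ad σ M * (D * ad σ (M * col1 u)) = M * H * ((ad σ M * D) * ad σ (M * col1 u)) := by simp only [Matrix.mul_assoc]
        _ = 0 := by rw [h.MD, Matrix.zero_mul, Matrix.mul_zero]
    rw [f1, f1, f2, smul_zero, smul_zero, smul_zero, sub_zero, add_zero, add_zero]
  have z2 : SE σ (M * col1 u) D a c * (M * H * ad σ M) = M * H * ad σ M := by
    unfold SE
    rw [add_mul, sub_mul, add_mul, one_mul, Matrix.smul_mul, Matrix.smul_mul, Matrix.smul_mul]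
    have f1 : ∀ P : Matrix (Fin n) (Fin 1) F, P * ad σ (M * col1 u) * (M * H * ad σ M) = 0 := by
      intro P
      calc P * ad σ (M * col1 u) * (M * H * ad σ M) = P * ((ad σ (M * col1 u) * M) * (H * ad σ M)) := by simp only [Matrix.mul_assoc]
        _ = 0 := by rw [hx', Matrix.zero_mul, Matrix.mul_zero]
    have f2 : M * col1 u * ad σ D * (M * H * ad σ M) = 0 := by
      calc M * col1 u * ad σ D * (M * H * ad σ M) = M * col1 u * ((ad σ D * M) * (H * ad σ M)) := by simp only [Matrix.mul_assoc]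
        _ = 0 := by rw [h.DM, Matrix.zero_mul, Matrix.mul_zero]
    rw [f1, f1, f2, smul_zero, smul_zero, smul_zero, sub_zero, add_zero, add_zero]
  have : tH M κ σ H = 1 + κ • (M * H * ad σ M) := rfl
  rw [this, add_mul, mul_add, one_mul, mul_one, Matrix.smul_mul, Matrix.mul_smul, z1, z2]

theorem SE_eq_tH (h : Frame σ M N D) (u : l → F) (κ t : F) :
    SE σ (M * col1 u) D 0 (κ * t) = tH M κ σ (t • out σ u u) := by
  unfold SE tH
  rw [map_zero, zero_smul, zero_smul, sub_zero, add_zero, Matrix.mul_smul, Matrix.smul_mul, smul_smul, ad_mul, ← col1_mul]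
  simp only [Matrix.mul_assoc]

variable [Fintype F]

open Classical in
theorem card_fix {q : ℕ} (hF : Fintype.card F = q ^ 2) (hσ : ∀ x, σ x = x ^ q) (hσ2 : ∀ x, σ (σ x) = x) :
    q ≤ Fintype.card {x : F // σ x = x} := by
  have hQ1 : 1 < q ^ 2 := by rw [← hF]; exact Fintype.one_lt_card
  have hq1 : 1 < q := by
    by_contra hcon
    have : q ^ 2 ≤ 1 ^ 2 := Nat.pow_le_pow_left (by omega) 2
    omega
  set Γ : Finset F := (Finset.univ.erase (0 : F)).image fun c => c * σ c with hΓd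
  have hΓc : q ^ 2 - 1 ≤ (q + 1) * Γ.card := by
    have h1 := Finset.card_le_mul_card_image (f := fun c : F => c * σ c) (Finset.univ.erase (0 : F)) (q + 1) (by
      intro a ha
      rw [Finset.mem_image] at ha
      obtain ⟨c, hc, rfl⟩ := ha
      refine le_trans (Finset.card_le_card (t := (Polynomial.nthRoots (q + 1) (c * σ c)).toFinset) ?_) ?_
      · intro d hd
        rw [Finset.mem_filter] at hd
        rw [Multiset.mem_toFinset, Polynomial.mem_nthRoots (by omega)]
        rw [← hd.2, hσ, pow_succ]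
        ring
      · exact (Multiset.toFinset_card_le _).trans (Polynomial.card_nthRoots _ _))
    rwa [Finset.card_erase_of_mem (Finset.mem_univ _), Finset.card_univ, hF] at h1
  have h0 : (0 : F) ∉ Γ := by
    rw [hΓd, Finset.mem_image]
    rintro ⟨c, hc, h0⟩
    have hc0 := Finset.ne_of_mem_erase hc
    exact mul_ne_zero hc0 ((map_ne_zero σ).mpr hc0) h0
  have h1 : q - 1 ≤ Γ.card := by
    by_contra hcon
    push Not at hcon
    have h2 : (q + 1) * Γ.card ≤ (q + 1) * (q - 2) := Nat.mul_le_mul_left _ (by omega)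
    obtain ⟨m, rfl⟩ : ∃ m, q = m + 2 := ⟨q - 2, by omega⟩
    have h3 : (m + 2) ^ 2 - 1 = (m + 2 + 1) * m + (m + 3) := by
      have : (m + 2) ^ 2 = (m + 2 + 1) * m + (m + 3) + 1 := by ring
      omega
    rw [Nat.add_sub_cancel] at h2
    omega
  have h2 : (insert (0 : F) Γ).card ≤ (Finset.univ.filter fun x : F => σ x = x).card := by
    refine Finset.card_le_card fun y hy => ?_
    rw [Finset.mem_filter]
    refine ⟨Finset.mem_univ _, ?_⟩
    rcases Finset.mem_insert.mp hy with rfl | hy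
    · exact map_zero σ
    · rw [hΓd, Finset.mem_image] at hy
      obtain ⟨c, -, rfl⟩ := hy
      rw [map_mul, hσ2, mul_comm]
  rw [Finset.card_insert_of_notMem h0] at h2
  rw [Fintype.card_subtype]
  omega

open Classical in
/-- the extraspecial part -/
theorem heis {q : ℕ} (hF : Fintype.card F = q ^ 2) (hσ : ∀ x, σ x = x ^ q) (h : Frame σ M N D) {κ : F} (hκ : σ κ = -κ)
    (hκ0 : κ ≠ 0) {τ : F} (hτ : τ + σ τ = 1) {V : Type*} [AddCommGroup V] [Module ℂ V] [FiniteDimensional ℂ V]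
    (ρ : Representation ℂ (Cfsg.SU n F q) V) (χ : AddChar (HermG l σ) ℂ) (hχ : wt ρ (jU hσ h hκ) χ ≠ ⊥)
    (hne : ∃ x a, χ (rk h.hσ2 x x a) ≠ 1) : q ≤ finrank ℂ (wt ρ (jU hσ h hκ) χ) := by
  obtain ⟨u, a₀, ha₀⟩ := hne
  have hE := h.EP u
  have hs : ∀ a : F, ∃ g : Cfsg.SU n F q, su g = SE σ (M * col1 u) D a (-τ * (a * σ a)) := by
    intro a
    refine exists_su hσ h.hσ2 (SE_det hE _ _) ?_
    rw [SE_ad hE, SE_mul hE, neg_add_cancel]
    have : σ (-τ * (a * σ a)) + -τ * (a * σ a) - -a * σ a = 0 := by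
      rw [map_mul, map_neg, map_mul, h.hσ2]
      linear_combination (-(a * σ a)) * hτ
    rw [this, SE_zero]
  choose s hs using hs
  -- the element of the radical
  let K := {x : F // σ x = x}
  have hout : ∀ t : K, ad σ ((t : F) • out σ u u) = (t : F) • out σ u u := fun t => by
    rw [ad_smul, ad_out h.hσ2, t.2]
  let o : K → HermG l σ := fun t => ⟨(t : F) • out σ u u, hout t⟩
  have hcomm : ∀ (a : F) (H : HermG l σ), s a * jU hσ h hκ (Multiplicative.ofAdd H) = jU hσ h hκ (Multiplicative.ofAdd H) * s a := by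
    intro a H
    apply su_ext
    rw [su_mul, su_mul, su_jU, hs, tH_comm h]
  have hcomm2 : ∀ (a k : K), s (a : F) * s ((k : F) * (κ * τ)) =
      s ((k : F) * (κ * τ)) * s (a : F) * jU hσ h hκ (Multiplicative.ofAdd (o ⟨(a : F) * (k : F), by rw [map_mul, a.2, k.2]⟩)) := by
    intro a k
    apply su_ext
    rw [su_mul, su_mul, su_mul, su_jU, hs, hs]
    change _ = _ * tH M κ σ (((a : F) * (k : F)) • out σ u u)
    rw [← SE_eq_tH h, SE_mul hE, SE_mul hE, SE_mul hE, map_zero, mul_zero, sub_zero, add_zero, add_comm (a : F)]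
    congr 1
    have e1 : σ ((k : F) * (κ * τ)) = -((k : F) * (κ * σ τ)) := by
      rw [map_mul, map_mul, k.2, hκ]; ring
    rw [e1, a.2]
    linear_combination ((a : F) * (k : F) * κ) * hτ
  have hcomm3 : ∀ (a b : K), s (a : F) * s (b : F) = s (b : F) * s (a : F) := by
    intro a b
    apply su_ext
    rw [su_mul, su_mul, hs, hs, SE_mul hE, SE_mul hE, a.2, b.2, add_comm (a : F)]
    congr 1; ring
  set U := wt ρ (jU hσ h hκ) χ with hU
  have hinv : ∀ a : F, ∀ v ∈ U, ρ (s a) v ∈ U := by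
    intro a v hv H
    rw [← Module.End.mul_apply, ← map_mul, ← hcomm, map_mul, Module.End.mul_apply, hv H, map_smul]
  obtain ⟨v0, hv0U, hv00, hv0⟩ := exists_common_eigen (Finset.univ : Finset K) (fun a => ρ (s (a : F)))
    (fun a _ b _ => by
      change ρ (s a) * ρ (s b) = ρ (s b) * ρ (s a)
      rw [← map_mul, hcomm3, map_mul]) U hχ (fun a _ v hv => hinv a v hv)
  choose! θ hθ using fun (a : K) => hv0 a (Finset.mem_univ a)
  have hθ0 : ∀ a, θ a ≠ 0 := by
    intro a h0
    have h1 := hθ a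
    rw [h0, zero_smul] at h1
    have h2 := rho_cancel' ρ (s (a : F)) v0
    rw [h1, map_zero] at h2
    exact hv00 h2.symm
  refine (card_fix hF hσ h.hσ2).trans ?_
  refine card_le_of_eigen (fun a : K => ρ (s (a : F))) U (fun k : K => ρ (s ((k : F) * (κ * τ))) v0) (fun k => hinv _ _ hv0U)
    (fun k h0 => ?_) (fun k a => χ (o ⟨(a : F) * (k : F), by rw [map_mul, a.2, k.2]⟩) * θ a) (fun k a => ?_) (fun k k' hkk => ?_)
  · have h2 := rho_cancel' ρ (s ((k : F) * (κ * τ))) v0
    rw [h0, map_zero] at h2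
    exact hv00 h2.symm
  · rw [← Module.End.mul_apply, ← map_mul, hcomm2, map_mul, map_mul, Module.End.mul_apply, Module.End.mul_apply,
      hv0U _, map_smul, map_smul, hθ, map_smul, smul_smul]
  · have hne : (k : F) - (k' : F) ≠ 0 := sub_ne_zero.mpr (fun h => hkk (Subtype.ext h))
    have hfix : σ ((a₀ + σ a₀) / ((k : F) - (k' : F))) = (a₀ + σ a₀) / ((k : F) - (k' : F)) := by
      rw [map_div₀, map_add, h.hσ2, map_sub, k.2, k'.2, add_comm]
    refine ⟨⟨(a₀ + σ a₀) / ((k : F) - (k' : F)), hfix⟩, fun heq => ?_⟩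
    have h3 := mul_right_cancel₀ (hθ0 _) heq
    apply ha₀
    have h4 : rk h.hσ2 u u a₀ + o ⟨(a₀ + σ a₀) / ((k : F) - (k' : F)) * (k' : F), by rw [map_mul, hfix, k'.2]⟩ =
        o ⟨(a₀ + σ a₀) / ((k : F) - (k' : F)) * (k : F), by rw [map_mul, hfix, k.2]⟩ := by
      apply Subtype.ext
      change (a₀ • out σ u u + σ a₀ • out σ u u) + ((a₀ + σ a₀) / ((k : F) - (k' : F)) * (k' : F)) • out σ u u =
        ((a₀ + σ a₀) / ((k : F) - (k' : F)) * (k : F)) • out σ u u
      rw [← add_smul, ← add_smul]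
      congr 1
      field_simp
      ring
    have h5 := congrArg χ h4
    rw [AddChar.map_add_eq_mul, h3] at h5
    exact mul_right_cancel₀ (AddChar.val_isUnit χ _).ne_zero (h5.trans (one_mul _).symm)

theorem su_odd {q r : ℕ} (hn : 3 ≤ n) (hr : n = 2 * r + 1) (h32 : ¬ (n = 3 ∧ q = 2)) (hF : Fintype.card F = q ^ 2)
    {V : Type*} [AddCommGroup V] [Module ℂ V] [FiniteDimensional ℂ V]
    (ρ : Representation ℂ (Cfsg.SU n F q) V) (hirr : ρ.IsIrreducible) (h2 : 2 ≤ finrank ℂ V) :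
    q ^ n - q ≤ (q + 1) * finrank ℂ V := by
  obtain ⟨σ, hσ, hf⟩ := CfsgLib.Un29.hermForm_unitary (F := F) n hF
  obtain ⟨κ, hκ0, hκ⟩ := CfsgLib.Un29.exists_skew hf
  obtain ⟨τ, hτ⟩ := CfsgLib.Un29.exists_trace_one hf
  obtain ⟨α, hα⟩ := CfsgLib.Un29.exists_norm hf (-1) (by rw [map_neg, map_one])
  have ht : (-τ) + σ (-τ) = -1 := by rw [map_neg]; linear_combination -hτ
  have e : Fin n ≃ (Fin r × Fin 2) ⊕ Fin 1 := Fintype.equivOfCardEq (by simp [hr, mul_comm])
  obtain ⟨M, N, D, h⟩ := exists_frame hf.involutive hα ht e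
  obtain ⟨N', h1, h3⟩ := su_bound hF (by omega) h32 (by simp; omega) hσ h hκ hκ0
    (fun c hc => CfsgLib.Un29.exists_norm hf c hc) hτ (Or.inl (by simp)) ρ hirr h2 q (fun χ hχ hne =>
      heis hF hσ h hκ hκ0 hτ ρ χ hχ hne)
  rw [Fintype.card_fin, ← pow_mul] at h1
  have h4 : q * (q ^ (2 * r) - 1) ≤ (q + 1) * (q * N') := by
    calc q * (q ^ (2 * r) - 1) ≤ q * ((q + 1) * N') := Nat.mul_le_mul_left _ h1
      _ = _ := by ring
  have h5 : q ^ n - q = q * (q ^ (2 * r) - 1) := by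
    rw [Nat.mul_sub, mul_one, hr, pow_succ]
    congr 1; ring
  rw [h5]
  exact h4.trans (Nat.mul_le_mul_left _ h3)

end CfsgLib.WtU
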