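import Cfsg.Agent.LibWt2

/-! counting quadratic forms, characteristic two (helper26) -/
set_option autoImplicit false
set_option linter.unusedSectionVars false

namespace CfsgLib.WtQ

open Matrix

variable {l : Type} [Fintype l] [DecidableEq l] {F : Type*} [Field F]

/-- stable under the general linear group -/
def Stab (X : Finset ((l → F) → F)) : Prop := ∀ f ∈ X, ∀ A : GL l F, (fun x => f ((A : Matrix l l F) *ᵥ x)) ∈ X

def R (f : (l → F) → F) (x : l → F) : Prop := f x ≠ 0 ∧ ∃ y, pol f x y ≠ 0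

theorem exists_R (h2 : (2 : F) = 0) {f : (l → F) → F} (hf : QF f) {u w : l → F} (h : pol f u w ≠ 0) : ∃ e, R f e := by
  by_cases hu : f u = 0
  · by_cases hw : f w = 0
    · refine ⟨u + w, ?_, w, ?_⟩
      · rw [QF.map_add (f := f), hu, hw, zero_add, zero_add]; exact h
      · rw [hf.add_left, hf.pol_self, h2, zero_mul, add_zero]; exact h
    · exact ⟨w, hw, u, by rw [pol_comm]; exact h⟩
  · exact ⟨u, hu, w, h⟩

theorem R_comp {f : (l → F) → F} (A : GL l F) {x : l → F} (h : R f ((A : Matrix l l F) *ᵥ x)) :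
    R (fun x => f ((A : Matrix l l F) *ᵥ x)) x := by
  obtain ⟨h1, y, hy⟩ := h
  refine ⟨h1, ((A⁻¹ : GL l F) : Matrix l l F) *ᵥ y, ?_⟩
  rw [pol_comp, mulVec_mulVec, ← Units.val_mul, mul_inv_cancel, Units.val_one, one_mulVec]
  exact hy

theorem attain [Fintype F] (h2 : (2 : F) = 0) {X : Finset ((l → F) → F)} (hX : Stab X) (hQ : ∀ f ∈ X, QF f)
    {f₀ : (l → F) → F} (hf₀ : f₀ ∈ X) {u : l → F} (hu : R f₀ u) {x : l → F} (hx : x ≠ 0) {γ : F} (hγ : γ ≠ 0)
    {β : l → F} (hβ : β ≠ 0) (hβx : β ⬝ᵥ x = 0) : ∃ f ∈ X, f x = γ ∧ ∀ y, pol f x y = β ⬝ᵥ y := by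
  have hc2 : CharP F 2 := (CharP.charP_iff_prime_eq_zero Nat.prime_two).mpr (by exact_mod_cast h2)
  have hu0 : u ≠ 0 := by
    rintro rfl
    exact hu.1 (hQ f₀ hf₀).zero
  obtain ⟨A1, hA1⟩ := exists_move hx hu0
  set f1 : (l → F) → F := fun x => f₀ ((A1 : Matrix l l F) *ᵥ x) with hf1d
  have hf1 : f1 ∈ X := hX f₀ hf₀ A1
  have hR1 : R f1 x := R_comp A1 (by rw [hA1]; exact hu)
  have hQ1 := hQ f1 hf1
  obtain ⟨β1, hβ1⟩ := hQ1.exists_vec x
  have hβ10 : β1 ≠ 0 := by
    rintro rfl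
    obtain ⟨y, hy⟩ := hR1.2
    rw [hβ1, zero_dotProduct] at hy
    exact hy rfl
  have hβ1x : β1 ⬝ᵥ x = 0 := by rw [← hβ1, hQ1.pol_self, h2, zero_mul]
  obtain ⟨c, hc⟩ := FiniteField.isSquare_of_char_two (ringChar.eq F 2).symm.symm (γ / f1 x)
  have hc0 : c ≠ 0 := by
    rintro rfl
    rw [mul_zero, div_eq_zero_iff] at hc
    rcases hc with h | h
    · exact hγ h
    · exact hR1.1 h
  obtain ⟨A2, a, hA2⟩ := exists_scale hx hc0
  set f2 : (l → F) → F := fun x => f1 ((A2 : Matrix l l F) *ᵥ x) with hf2d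
  have hf2 : f2 ∈ X := hX f1 hf1 A2
  have hA2x : (A2 : Matrix l l F) *ᵥ x = c • x := by
    rw [(hA2 x).1, (hA2 x).2, one_smul, sub_smul, one_smul, add_sub_cancel]
  have hf2x : f2 x = γ := by
    change f1 ((A2 : Matrix l l F) *ᵥ x) = γ
    rw [hA2x, hQ1.smul, sq, ← hc, div_mul_cancel₀ _ hR1.1]
  have hf2p : ∀ z, pol f2 x z = (c • β1) ⬝ᵥ z := by
    intro z
    rw [hf2d, pol_comp, hA2x, (hA2 z).1, hQ1.psm_left, hQ1.add, hQ1.psm, hQ1.psm, hβ1, hβ1, hβ1x, mul_zero, mul_zero,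
      add_zero, smul_dotProduct, smul_eq_mul]
  obtain ⟨A3, hA3x, hA3⟩ := exists_corad (smul_ne_zero hc0 hβ10) hβ (by rw [smul_dotProduct, hβ1x, smul_zero]) hβx
  refine ⟨_, hX f2 hf2 A3, ?_, fun y => ?_⟩
  · change f2 ((A3 : Matrix l l F) *ᵥ x) = γ
    rw [hA3x, hf2x]
  · rw [pol_comp, hA3x, hf2p, hA3]

/-- two linear functionals with zero product -/
theorem zero_of_mul {a b : l → F} (h : ∀ y : l → F, (a ⬝ᵥ y) * (b ⬝ᵥ y) = 0) : a = 0 ∨ b = 0 := by
  by_contra hcon
  push Not at hcon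
  obtain ⟨y, h1, h2⟩ := exists_common hcon.1 hcon.2
  exact mul_ne_zero h1 h2 (h y)

open Classical in
theorem card_Y [Fintype F] (h2 : (2 : F) = 0) {X : Finset ((l → F) → F)} (hX : Stab X) (hQ : ∀ f ∈ X, QF f)
    {f₀ : (l → F) → F} (hf₀ : f₀ ∈ X) {u : l → F} (hu : R f₀ u) {x : l → F} (hx : x ≠ 0) {h : ℕ}
    (hh : h * Fintype.card F = Fintype.card F ^ Fintype.card l) :
    (Fintype.card F - 1) * (h - 1) * h ≤ 2 * (X.filter fun f => R f x).card := by
  set H : Finset (l → F) := Finset.univ.filter fun a => a ⬝ᵥ x = 0 with hH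
  have hHc : H.card = h := by
    have := card_hyper (F := F) hx
    have h3 : H.card * Fintype.card F = h * Fintype.card F := by rw [hh, ← this]
    exact Nat.eq_of_mul_eq_mul_right Fintype.card_pos h3
  have hH0 : (0 : l → F) ∈ H := by simp [hH]
  set P : Finset ((F × (l → F)) × (l → F)) :=
    ((Finset.univ.erase (0 : F)) ×ˢ (H.erase 0)) ×ˢ H with hP
  have hPc : P.card = (Fintype.card F - 1) * (h - 1) * h := by
    rw [hP, Finset.card_product, Finset.card_product, Finset.card_erase_of_mem (Finset.mem_univ _),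
      Finset.card_erase_of_mem hH0, Finset.card_univ, hHc]
  have hsel : ∀ p : F × (l → F), p ∈ (Finset.univ.erase (0 : F)) ×ˢ (H.erase 0) →
      ∃ f ∈ X, f x = p.1 ∧ ∀ y, pol f x y = p.2 ⬝ᵥ y := by
    intro p hp
    rw [Finset.mem_product, Finset.mem_erase, Finset.mem_erase, hH, Finset.mem_filter] at hp
    exact attain h2 hX hQ hf₀ hu hx hp.1.1 hp.2.1 hp.2.2.2
  choose! f hfX hfx hfp using hsel
  have hT : ∀ a : l → F, a ∈ H → ∃ A : GL l F, ∀ z, (A : Matrix l l F) *ᵥ z = z + (a ⬝ᵥ z) • x := by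
    intro a ha
    rw [hH, Finset.mem_filter] at ha
    exact exists_T a x (by rw [ha.2, add_zero]; exact one_ne_zero)
  choose! T hT using hT
  rw [← hPc]
  refine Finset.card_le_mul_card_image_of_maps_to (f := fun p : (F × (l → F)) × (l → F) =>
    fun z => f p.1 ((T p.2 : Matrix l l F) *ᵥ z)) ?_ 2 ?_
  · rintro ⟨p, a⟩ hpa
    rw [hP, Finset.mem_product] at hpa
    have hax : a ⬝ᵥ x = 0 := by
      have := hpa.2
      rw [hH, Finset.mem_filter] at this
      exact this.2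
    have hTx : (T a : Matrix l l F) *ᵥ x = x := by rw [hT a hpa.2, hax, zero_smul, add_zero]
    rw [Finset.mem_filter]
    refine ⟨hX _ (hfX p hpa.1) _, R_comp _ ?_⟩
    rw [hTx]
    have hp1 := hpa.1
    rw [Finset.mem_product, Finset.mem_erase, Finset.mem_erase] at hp1
    refine ⟨by rw [hfx p hpa.1]; exact hp1.1.1, ?_⟩
    obtain ⟨y, hy, -⟩ := exists_common hp1.2.1 hp1.2.1
    exact ⟨y, by rw [hfp p hpa.1]; exact hy⟩
  · intro g hg
    by_cases hne : (P.filter fun p => (fun z => f p.1 ((T p.2 : Matrix l l F) *ᵥ z)) = g).Nonempty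
    · obtain ⟨⟨p, a⟩, hpa⟩ := hne
      rw [Finset.mem_filter, hP, Finset.mem_product] at hpa
      obtain ⟨⟨hp, ha⟩, hg⟩ := hpa
      refine le_trans (Finset.card_le_card (t := {(p, a), (p, a - p.1⁻¹ • p.2)}) ?_) Finset.card_le_two
      rintro ⟨p', a'⟩ hpa'
      rw [Finset.mem_filter, hP, Finset.mem_product] at hpa'
      obtain ⟨⟨hp', ha'⟩, hg'⟩ := hpa'
      simp only at hp hp' ha ha' hg hg'
      have hval : ∀ q : F × (l → F), ∀ b, q ∈ (Finset.univ.erase (0 : F)) ×ˢ (H.erase 0) → b ∈ H →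
          (∀ z, f q ((T b : Matrix l l F) *ᵥ z) = f q z + (b ⬝ᵥ z) ^ 2 * q.1 + (b ⬝ᵥ z) * (q.2 ⬝ᵥ z)) := by
        intro q b hq hb z
        rw [hT b hb, QF.map_add (f := f q), (hQ _ (hfX q hq)).smul, hfx q hq, (hQ _ (hfX q hq)).psm, pol_comm, hfp q hq]
      have hx0 : ∀ b, b ∈ H → b ⬝ᵥ x = 0 := fun b hb => by
        rw [hH, Finset.mem_filter] at hb; exact hb.2
      have e1 : p'.1 = p.1 := by
        have := congrFun (hg'.trans hg.symm) x
        rw [hval _ _ hp' ha', hval _ _ hp ha, hx0 _ ha, hx0 _ ha', hfx _ hp, hfx _ hp'] at this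
        simpa using this
      have hpolx : ∀ q : F × (l → F), ∀ b, q ∈ (Finset.univ.erase (0 : F)) ×ˢ (H.erase 0) → b ∈ H → ∀ y,
          pol (fun z => f q ((T b : Matrix l l F) *ᵥ z)) x y = q.2 ⬝ᵥ y := by
        intro q b hq hb y
        have hTx : (T b : Matrix l l F) *ᵥ x = x := by rw [hT b hb, hx0 b hb, zero_smul, add_zero]
        rw [pol_comp, hTx, hT b hb, (hQ _ (hfX q hq)).add, (hQ _ (hfX q hq)).psm, (hQ _ (hfX q hq)).pol_self, h2,
          zero_mul, mul_zero, add_zero, hfp q hq]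
      have e2 : p'.2 = p.2 := by
        have h3 : ∀ y, p'.2 ⬝ᵥ y = p.2 ⬝ᵥ y := by
          intro y
          rw [← hpolx p' a' hp' ha' y, ← hpolx p a hp ha y, hg, hg']
        ext i
        have := h3 (Pi.single i 1)
        simpa using this
      have e3 : p' = p := Prod.ext e1 e2
      rw [e3] at hg' hp' ⊢
      have hp1 : p.1 ≠ 0 := by
        rw [Finset.mem_product, Finset.mem_erase] at hp
        exact hp.1.1
      have h4 : (a' - a) = 0 ∨ (a' - a + p.1⁻¹ • p.2) = 0 := by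
        refine zero_of_mul fun y => ?_
        have := congrFun (hg'.trans hg.symm) y
        rw [hval _ _ hp ha', hval _ _ hp ha] at this
        rw [sub_dotProduct, add_dotProduct, sub_dotProduct, smul_dotProduct, smul_eq_mul]
        have h5 : (a' ⬝ᵥ y - a ⬝ᵥ y) * ((a' ⬝ᵥ y + a ⬝ᵥ y) * p.1 + p.2 ⬝ᵥ y) = 0 := by
          linear_combination this
        have h6 : (a' ⬝ᵥ y - a ⬝ᵥ y + p.1⁻¹ * p.2 ⬝ᵥ y) = p.1⁻¹ * ((a' ⬝ᵥ y + a ⬝ᵥ y) * p.1 + p.2 ⬝ᵥ y) := by
          field_simp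
          linear_combination (-(a ⬝ᵥ y) * p.1) * h2
        rw [h6]
        linear_combination p.1⁻¹ * h5
      rw [Finset.mem_insert, Finset.mem_singleton]
      rcases h4 with h4 | h4
      · left
        rw [sub_eq_zero] at h4
        rw [h4]
      · right
        have : a' = a - p.1⁻¹ • p.2 := by
          have := h4
          rw [sub_add_eq_add_sub, sub_eq_zero] at this
          rw [← this, add_sub_cancel_right]
        rw [this]
    · rw [Finset.not_nonempty_iff_eq_empty] at hne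
      rw [hne, Finset.card_empty]
      exact Nat.zero_le _

open Classical in
theorem card_notR [Fintype F] (h2 : (2 : F) = 0) {f : (l → F) → F} (hf : QF f) (h : ∃ x y, pol f x y ≠ 0) :
    Fintype.card F ^ Fintype.card l ≤ (Finset.univ.filter fun x : l → F => ¬ R f x).card * Fintype.card F ^ 2 := by
  have hc2 : CharP F 2 := (CharP.charP_iff_prime_eq_zero Nat.prime_two).mpr (by exact_mod_cast h2)
  obtain ⟨x, y, hxy⟩ := h
  obtain ⟨e, he, w, hw⟩ := exists_R h2 hf hxy
  obtain ⟨b, hb⟩ := hf.exists_vec e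
  obtain ⟨b', hb'⟩ := hf.exists_vec w
  refine le_trans (card_codim_two b b') (Nat.mul_le_mul_right _ ?_)
  have hsq : ∀ z : l → F, ∃ a : F, a * a = f z / f e := fun z => by
    obtain ⟨c, hc⟩ := FiniteField.isSquare_of_char_two (ringChar.eq F 2).symm.symm (f z / f e)
    exact ⟨c, hc.symm⟩
  choose a ha using hsq
  refine Finset.card_le_card_of_injOn (fun z => z + a z • e) ?_ ?_
  · intro z hz
    simp only [Finset.coe_filter, Finset.mem_univ, true_and, Set.mem_ofPred_eq] at hz ⊢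
    rintro ⟨h1, -⟩
    apply h1
    rw [QF.map_add (f := f), hf.smul, hf.psm, pol_comm, hb, hz.1, mul_zero, add_zero, sq, ha, div_mul_cancel₀ _ he]
    rw [← two_mul, h2, zero_mul]
  · intro z hz z' hz' hzz'
    simp only [Finset.coe_filter, Finset.mem_univ, true_and, Set.mem_ofPred_eq] at hz hz'
    simp only at hzz'
    have h1 := congrArg (fun v => b' ⬝ᵥ v) hzz'
    simp only [dotProduct_add, dotProduct_smul, hz.2, hz'.2, zero_add, smul_eq_mul] at h1
    have h3 : b' ⬝ᵥ e ≠ 0 := by rw [← hb', pol_comm]; exact hw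
    have h4 : a z = a z' := mul_right_cancel₀ h3 h1
    rw [h4] at hzz'
    exact add_right_cancel hzz'

theorem arith_even (q m N : ℕ) (hq1 : 1 < q) (hm0 : 0 < m)
    (h9 : (q ^ 2 * m - 1) * ((q - 1) * (q * m - 1) * (q * m)) ≤ 2 * (N * (q ^ 2 * m - m))) :
    (q ^ 2 * m - 1) * (q ^ 2 * m - q) ≤ 2 * (q + 1) * N := by
  -- arithmetic
  obtain ⟨r, rfl⟩ : ∃ r, q = r + 1 := ⟨q - 1, by omega⟩
  have hr : 0 < r := by omega
  have e1 : (r + 1) ^ 2 * m - m = r * (m * (r + 2)) := by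
    have : (r + 1) ^ 2 * m = r * (m * (r + 2)) + m := by ring
    omega
  have e2 : (r + 1) ^ 2 * m - (r + 1) = ((r + 1) * m - 1) * (r + 1) := by
    rw [Nat.sub_mul, one_mul]
    congr 1; ring
  rw [e1, Nat.add_sub_cancel] at h9
  rw [e2]
  have h10 : (r * m) * (((r + 1) ^ 2 * m - 1) * (((r + 1) * m - 1) * (r + 1))) ≤ (r * m) * (2 * (r + 1 + 1) * N) := by
    calc (r * m) * (((r + 1) ^ 2 * m - 1) * (((r + 1) * m - 1) * (r + 1)))
        = ((r + 1) ^ 2 * m - 1) * (r * ((r + 1) * m - 1) * ((r + 1) * m)) := by ring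
      _ ≤ 2 * (N * (r * (m * (r + 2)))) := h9
      _ = (r * m) * (2 * (r + 1 + 1) * N) := by ring
  exact Nat.le_of_mul_le_mul_left h10 (by positivity)

open Classical in
theorem count_even [Fintype F] (h2 : (2 : F) = 0) (hl : 2 ≤ Fintype.card l) {X : Finset ((l → F) → F)} (hX : Stab X)
    (hQ : ∀ f ∈ X, QF f) (hne : ∃ f ∈ X, ∃ x y, pol f x y ≠ 0) :
    (Fintype.card F ^ Fintype.card l - 1) * (Fintype.card F ^ Fintype.card l - Fintype.card F) ≤
      2 * (Fintype.card F + 1) * (X.filter fun f => ∃ x y, pol f x y ≠ 0).card := by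
  obtain ⟨f₀, hf₀, x₀, y₀, h₀⟩ := hne
  obtain ⟨u, hu⟩ := exists_R h2 (hQ f₀ hf₀) h₀
  obtain ⟨k, hk⟩ := Nat.exists_eq_add_of_le hl
  set q := Fintype.card F with hq
  have hq1 : 1 < q := Fintype.one_lt_card
  set m := q ^ k with hm
  have hm0 : 0 < m := pow_pos (by omega) _
  have hn : q ^ Fintype.card l = q ^ 2 * m := by rw [hk, pow_add]
  set X' := X.filter fun f => ∃ x y, pol f x y ≠ 0 with hX'
  have hY : ∀ x ∈ (Finset.univ.erase (0 : l → F)), (q - 1) * (q * m - 1) * (q * m) ≤ 2 * (X'.filter fun f => R f x).card := by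
    intro x hx
    have h1 := card_Y h2 hX hQ hf₀ hu (Finset.ne_of_mem_erase hx) (h := q * m) (by rw [← hq, hn]; ring)
    refine le_trans h1 (Nat.mul_le_mul_left _ (Finset.card_le_card ?_))
    intro f hf
    rw [Finset.mem_filter] at hf
    rw [hX', Finset.mem_filter, Finset.mem_filter]
    exact ⟨⟨hf.1, x, hf.2.2⟩, hf.2⟩
  have hZ : ∀ f ∈ X', ((Finset.univ.erase (0 : l → F)).filter fun x => R f x).card ≤ q ^ 2 * m - m := by
    intro f hf
    rw [hX', Finset.mem_filter] at hf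
    have h1 := card_notR h2 (hQ f hf.1) hf.2
    rw [← hq, hn, mul_comm] at h1
    have h3 := Nat.le_of_mul_le_mul_right h1 (by positivity)
    have h4 : ((Finset.univ.erase (0 : l → F)).filter fun x => R f x).card ≤ (Finset.univ.filter fun x => R f x).card :=
      Finset.card_le_card (Finset.filter_subset_filter _ (Finset.erase_subset _ _))
    have h5 := Finset.card_filter_add_card_filter_not (s := (Finset.univ : Finset (l → F))) (fun x => R f x)
    rw [Finset.card_univ, Fintype.card_fun, ← hq, hn] at h5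
    omega
  have hdc := Finset.sum_card_bipartiteAbove_eq_sum_card_bipartiteBelow (s := (Finset.univ.erase (0 : l → F))) (t := X')
    (fun x f => R f x)
  have h6 : ((Finset.univ.erase (0 : l → F)).card) * ((q - 1) * (q * m - 1) * (q * m)) ≤
      2 * ∑ x ∈ (Finset.univ.erase (0 : l → F)), (X'.filter fun f => R f x).card := by
    rw [Finset.mul_sum, ← smul_eq_mul]
    exact Finset.card_nsmul_le_sum _ _ _ hY
  have h7 : ∑ f ∈ X', ((Finset.univ.erase (0 : l → F)).filter fun x => R f x).card ≤ X'.card * (q ^ 2 * m - m) := by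
    rw [← smul_eq_mul]
    exact Finset.sum_le_card_nsmul _ _ _ hZ
  have h8 : (Finset.univ.erase (0 : l → F)).card = q ^ 2 * m - 1 := by
    rw [Finset.card_erase_of_mem (Finset.mem_univ _), Finset.card_univ, Fintype.card_fun, ← hq, hn]
  simp only [Finset.bipartiteAbove, Finset.bipartiteBelow] at hdc
  rw [hdc, h8] at h6
  have h9 := h6.trans (Nat.mul_le_mul_left 2 h7)
  rw [hn]
  exact arith_even q m X'.card hq1 hm0 h9

end CfsgLib.WtQ
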