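import Cfsg.Agent.LibWt1
import Cfsg.Agent.LibWt2
import Cfsg.Agent.LibSU27

/-! the Siegel parabolic of SU_n (helper26) -/
set_option autoImplicit false
set_option linter.unusedSectionVars false

namespace CfsgLib.WtU

open Matrix

section ad

variable {F : Type*} [Field F] (σ : F ≃+* F)

/-- conjugate transpose -/
def ad {m n : Type*} (M : Matrix m n F) : Matrix n m F := (M.map σ)ᵀ

variable {m n p : Type*} [Fintype m] [Fintype n] [Fintype p]

theorem ad_apply (M : Matrix m n F) (i : n) (j : m) : ad σ M i j = σ (M j i) := rfl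

theorem ad_mul (M : Matrix m n F) (N : Matrix n p F) : ad σ (M * N) = ad σ N * ad σ M := by
  rw [ad, ad, ad, Matrix.map_mul, transpose_mul]

theorem ad_add (M N : Matrix m n F) : ad σ (M + N) = ad σ M + ad σ N := by
  ext i j; simp [ad_apply]

theorem ad_sub (M N : Matrix m n F) : ad σ (M - N) = ad σ M - ad σ N := by
  ext i j; simp [ad_apply]

theorem ad_zero : ad σ (0 : Matrix m n F) = 0 := by
  ext i j; simp [ad_apply]

theorem ad_neg (M : Matrix m n F) : ad σ (-M) = - ad σ M := by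
  ext i j; simp [ad_apply]

theorem ad_smul (c : F) (M : Matrix m n F) : ad σ (c • M) = σ c • ad σ M := by
  ext i j; simp [ad_apply]

theorem ad_one [DecidableEq n] : ad σ (1 : Matrix n n F) = 1 := by
  rw [ad, Matrix.map_one σ (map_zero σ) (map_one σ), transpose_one]

theorem ad_ad (hσ2 : ∀ x, σ (σ x) = x) (M : Matrix m n F) : ad σ (ad σ M) = M := by
  ext i j; simp [ad_apply, hσ2]

theorem det_ad [DecidableEq n] (M : Matrix n n F) : (ad σ M).det = σ M.det := by
  rw [ad, det_transpose]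
  exact (RingEquiv.map_det σ M).symm

end ad

variable {F : Type*} [Field F] (σ : F ≃+* F) {l p : Type} [Fintype l] [DecidableEq l] [Fintype p] [DecidableEq p] {n : ℕ}

/-- a Witt frame -/
structure Frame (M N : Matrix (Fin n) l F) (D : Matrix (Fin n) p F) : Prop where
  hσ2 : ∀ x, σ (σ x) = x
  MM : ad σ M * M = 0
  NN : ad σ N * N = 0
  NM : ad σ N * M = 1
  DD : ad σ D * D = 1
  DM : ad σ D * M = 0
  DN : ad σ D * N = 0

variable {σ} {M N : Matrix (Fin n) l F} {D : Matrix (Fin n) p F}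

theorem Frame.MN (h : Frame σ M N D) : ad σ M * N = 1 := by
  have := congrArg (ad σ) h.NM
  rwa [ad_mul, ad_ad σ h.hσ2, ad_one] at this

theorem Frame.MD (h : Frame σ M N D) : ad σ M * D = 0 := by
  have := congrArg (ad σ) h.DM
  rwa [ad_mul, ad_ad σ h.hσ2, ad_zero] at this

theorem Frame.ND (h : Frame σ M N D) : ad σ N * D = 0 := by
  have := congrArg (ad σ) h.DN
  rwa [ad_mul, ad_ad σ h.hσ2, ad_zero] at this

/-- hermitian matrices -/
def HermG (l : Type) [Fintype l] (σ : F ≃+* F) : AddSubgroup (Matrix l l F) where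
  carrier := {H | ad σ H = H}
  add_mem' {a b} ha hb := by
    change ad σ (a + b) = a + b
    rw [ad_add, show ad σ a = a from ha, show ad σ b = b from hb]
  zero_mem' := by
    change ad σ (0 : Matrix l l F) = 0
    rw [ad_zero]
  neg_mem' {a} ha := by
    change ad σ (-a) = -a
    rw [ad_neg, show ad σ a = a from ha]

theorem herm_ad (H : HermG l σ) : ad σ (H : Matrix l l F) = H := H.2

/-- the elements of the radical -/
def tH (M : Matrix (Fin n) l F) (κ : F) (σ : F ≃+* F) (H : Matrix l l F) : Matrix (Fin n) (Fin n) F :=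
  1 + κ • (M * H * ad σ M)

theorem tH_mul (h : ad σ M * M = 0) (κ : F) (H K : Matrix l l F) : tH M κ σ H * tH M κ σ K = tH M κ σ (H + K) := by
  unfold tH
  have h1 : M * H * ad σ M * (M * K * ad σ M) = 0 := by
    calc M * H * ad σ M * (M * K * ad σ M) = M * H * (ad σ M * M) * (K * ad σ M) := by simp only [Matrix.mul_assoc]
      _ = 0 := by rw [h, Matrix.mul_zero, Matrix.zero_mul]
  rw [add_mul, mul_add, mul_add, mul_one, one_mul, mul_one, Matrix.smul_mul, Matrix.mul_smul, h1, smul_zero, smul_zero,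
    add_zero, Matrix.mul_add, Matrix.add_mul, smul_add]
  abel

theorem tH_det (h : ad σ M * M = 0) (κ : F) (H : Matrix l l F) : (tH M κ σ H).det = 1 := by
  unfold tH
  rw [← Matrix.smul_mul, Matrix.det_one_add_mul_comm, Matrix.mul_smul, ← Matrix.mul_assoc, h, Matrix.zero_mul, smul_zero,
    add_zero, det_one]

theorem tH_ad (hσ2 : ∀ x, σ (σ x) = x) {κ : F} (hκ : σ κ = -κ) {H : Matrix l l F} (hH : ad σ H = H) :
    ad σ (tH M κ σ H) = tH M κ σ (-H) := by
  unfold tH
  rw [ad_add, ad_one, ad_smul, hκ, ad_mul, ad_mul, ad_ad σ hσ2, hH, Matrix.mul_neg, Matrix.neg_mul, smul_neg, neg_smul,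
    Matrix.mul_assoc]

variable {q : ℕ}

theorem su_mem (hσ : ∀ x, σ x = x ^ q) (hσ2 : ∀ x, σ (σ x) = x) (A : Matrix.SpecialLinearGroup (Fin n) F)
    (h : ad σ (A : Matrix (Fin n) (Fin n) F) * (A : Matrix (Fin n) (Fin n) F) = 1) : A ∈ Cfsg.SU n F q :=
  (CfsgLib.SU27.mem_SU_iff (σ : F →+* F) hσ hσ2 A).mpr h

/-- the radical -/
def jU (hσ : ∀ x, σ x = x ^ q) (h : Frame σ M N D) {κ : F} (hκ : σ κ = -κ) :
    Multiplicative (HermG l σ) →* Cfsg.SU n F q where
  toFun H := ⟨(⟨tH M κ σ ((Multiplicative.toAdd H : HermG l σ) : Matrix l l F), tH_det h.MM κ _⟩ :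
      Matrix.SpecialLinearGroup (Fin n) F), su_mem hσ h.hσ2 _ (by
    change ad σ (tH M κ σ ((Multiplicative.toAdd H : HermG l σ) : Matrix l l F)) *
      tH M κ σ ((Multiplicative.toAdd H : HermG l σ) : Matrix l l F) = 1
    rw [tH_ad h.hσ2 hκ (herm_ad _), tH_mul h.MM, neg_add_cancel]
    simp [tH])⟩
  map_one' := by
    apply Subtype.ext
    apply Subtype.ext
    change tH M κ σ ((0 : HermG l σ) : Matrix l l F) = 1
    simp [tH]
  map_mul' H K := by
    apply Subtype.ext
    apply Subtype.ext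
    change tH M κ σ ((Multiplicative.toAdd H + Multiplicative.toAdd K : HermG l σ) : Matrix l l F) =
      tH M κ σ ((Multiplicative.toAdd H : HermG l σ) : Matrix l l F) * tH M κ σ ((Multiplicative.toAdd K : HermG l σ) : Matrix l l F)
    rw [tH_mul h.MM]
    rfl

/-- the matrix of an element of SU -/
def su (A : Cfsg.SU n F q) : Matrix (Fin n) (Fin n) F := ((A : Matrix.SpecialLinearGroup (Fin n) F) : Matrix (Fin n) (Fin n) F)

theorem su_mul (A B : Cfsg.SU n F q) : su (A * B) = su A * su B := rfl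

theorem su_ext {A B : Cfsg.SU n F q} (h : su A = su B) : A = B := Subtype.ext (Subtype.ext h)

theorem su_jU (hσ : ∀ x, σ x = x ^ q) (h : Frame σ M N D) {κ : F} (hκ : σ κ = -κ) (H : HermG l σ) :
    su (jU hσ h hκ (Multiplicative.ofAdd H)) = tH M κ σ (H : Matrix l l F) := rfl

theorem exists_su (hσ : ∀ x, σ x = x ^ q) (hσ2 : ∀ x, σ (σ x) = x) {A : Matrix (Fin n) (Fin n) F} (h1 : A.det = 1) (h2 : ad σ A * A = 1) :
    ∃ g : Cfsg.SU n F q, su g = A :=
  ⟨⟨(⟨A, h1⟩ : Matrix.SpecialLinearGroup (Fin n) F), su_mem hσ hσ2 _ h2⟩, rfl⟩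

/-- the action -/
def act (σ : F ≃+* F) (hσ2 : ∀ x, σ (σ x) = x) (A : GL l F) : HermG l σ →+ HermG l σ where
  toFun H := ⟨(A : Matrix l l F) * (H : Matrix l l F) * ad σ (A : Matrix l l F), by
    change ad σ ((A : Matrix l l F) * (H : Matrix l l F) * ad σ (A : Matrix l l F)) = _
    rw [ad_mul, ad_mul, ad_ad σ hσ2, herm_ad, Matrix.mul_assoc]⟩
  map_zero' := by apply Subtype.ext; simp
  map_add' S T := by
    apply Subtype.ext
    simp [mul_add, add_mul]

/-- Levi elements -/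
def lev (σ : F ≃+* F) (M N : Matrix (Fin n) l F) (D : Matrix (Fin n) p F) (A B : Matrix l l F) (Δ : Matrix p p F) :
    Matrix (Fin n) (Fin n) F := 1 + M * (A - 1) * ad σ N + N * (B - 1) * ad σ M + D * (Δ - 1) * ad σ D

theorem lev_mul (h : Frame σ M N D) (A B A' B' : Matrix l l F) (Δ Δ' : Matrix p p F) :
    lev σ M N D A B Δ * lev σ M N D A' B' Δ' = lev σ M N D (A * A') (B * B') (Δ * Δ') := by
  have e : ∀ {a b c d : Type} [Fintype a] [Fintype b] [Fintype c] [Fintype d] (P : Matrix (Fin n) a F) (X : Matrix a b F)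
      (Q : Matrix b (Fin n) F) (P' : Matrix (Fin n) c F) (X' : Matrix c d F) (Q' : Matrix d (Fin n) F),
      P * X * Q * (P' * X' * Q') = P * (X * (Q * P') * X') * Q' := by
    intros; simp only [Matrix.mul_assoc]
  unfold lev
  simp only [add_mul, mul_add, one_mul, mul_one, e, h.MM, h.NN, h.NM, h.DD, h.DM, h.DN, h.MN, h.MD, h.ND, Matrix.mul_zero,
    Matrix.zero_mul, add_zero, zero_add]
  have e2 : ∀ {a : Type} [Fintype a] [DecidableEq a] (X X' : Matrix a a F),
      X * X' - 1 = (X - 1) + (X' - 1) + (X - 1) * (X' - 1) := by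
    intro a _ _ X X'
    noncomm_ring
  rw [e2 A A', e2 B B', e2 Δ Δ']
  simp only [Matrix.mul_add, Matrix.add_mul, Matrix.mul_one]
  abel

theorem lev_ad (h : Frame σ M N D) (A B : Matrix l l F) (Δ : Matrix p p F) :
    ad σ (lev σ M N D A B Δ) = lev σ M N D (ad σ B) (ad σ A) (ad σ Δ) := by
  unfold lev
  simp only [ad_add, ad_one, ad_mul, ad_sub, ad_ad σ h.hσ2, Matrix.mul_assoc]
  abel

theorem lev_one : lev σ M N D 1 1 1 = 1 := by
  simp [lev]

theorem lev_det (h : Frame σ M N D) (A B : Matrix l l F) (Δ : Matrix p p F) :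
    (lev σ M N D A B Δ).det = A.det * B.det * Δ.det := by
  have h1 : lev σ M N D A B Δ = 1 + fromCols (fromCols (M * (A - 1)) (N * (B - 1))) (D * (Δ - 1)) *
      fromRows (fromRows (ad σ N) (ad σ M)) (ad σ D) := by
    rw [fromCols_mul_fromRows, fromCols_mul_fromRows]
    unfold lev
    abel
  rw [h1, Matrix.det_one_add_mul_comm]
  have h2 : (fromRows (fromRows (ad σ N) (ad σ M)) (ad σ D) *
      fromCols (fromCols (M * (A - 1)) (N * (B - 1))) (D * (Δ - 1)) : Matrix ((l ⊕ l) ⊕ p) ((l ⊕ l) ⊕ p) F) =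
      fromBlocks (fromBlocks (A - 1) 0 0 (B - 1)) 0 0 (Δ - 1) := by
    rw [fromRows_mul_fromCols, fromRows_mul_fromCols, fromRows_mul, mul_fromCols]
    simp only [← Matrix.mul_assoc, h.MM, h.NN, h.NM, h.DD, h.DM, h.DN, h.MN, h.MD, h.ND, Matrix.zero_mul, Matrix.one_mul]
    simp
  rw [h2, ← fromBlocks_one, ← fromBlocks_one, fromBlocks_add, fromBlocks_add]
  simp

theorem exists_levi (hσ : ∀ x, σ x = x ^ q) (h : Frame σ M N D) {κ : F} (hκ : σ κ = -κ) (A : GL l F) (Δ : Matrix p p F)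
    (hΔ : ad σ Δ * Δ = 1) (hdet : (A : Matrix l l F).det * Δ.det = σ (A : Matrix l l F).det) :
    ∃ g : Cfsg.SU n F q, ∀ H, g * jU hσ h hκ (Multiplicative.ofAdd H) * g⁻¹ = jU hσ h hκ (Multiplicative.ofAdd (act σ h.hσ2 A H)) := by
  set A' : Matrix l l F := ((A⁻¹ : GL l F) : Matrix l l F) with hA'
  have h1 : (A : Matrix l l F) * A' = 1 := by rw [hA', ← Units.val_mul, mul_inv_cancel, Units.val_one]
  have h2 : A' * (A : Matrix l l F) = 1 := by rw [hA', ← Units.val_mul, inv_mul_cancel, Units.val_one]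
  have h3 : ad σ (A : Matrix l l F) * ad σ A' = 1 := by rw [← ad_mul, h2, ad_one]
  have hd : (A : Matrix l l F).det * A'.det = 1 := by rw [← det_mul, h1, det_one]
  obtain ⟨g, hg⟩ := exists_su (n := n) hσ h.hσ2 (A := lev σ M N D (A : Matrix l l F) (ad σ A') Δ) (by
      rw [lev_det h, det_ad, mul_right_comm, hdet, ← map_mul, hd, map_one]) (by
      rw [lev_ad h, lev_mul h, ad_ad σ h.hσ2, h2, h3, hΔ, lev_one])
  refine ⟨g, fun H => ?_⟩
  rw [mul_inv_eq_iff_eq_mul]
  apply su_ext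
  rw [su_mul, su_mul, su_jU, su_jU, hg]
  have e1 : lev σ M N D (A : Matrix l l F) (ad σ A') Δ * M = M * (A : Matrix l l F) := by
    unfold lev
    simp only [Matrix.add_mul, Matrix.one_mul, Matrix.mul_assoc, h.MM, h.NM, h.DM, Matrix.mul_zero, Matrix.mul_one, add_zero]
    rw [Matrix.mul_sub, Matrix.mul_one, add_sub_cancel]
  have e2 : ad σ M * lev σ M N D (A : Matrix l l F) (ad σ A') Δ = ad σ A' * ad σ M := by
    unfold lev
    simp only [Matrix.mul_add, Matrix.mul_one, ← Matrix.mul_assoc, h.MM, h.MN, h.MD, Matrix.zero_mul, Matrix.one_mul, add_zero]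
    rw [Matrix.sub_mul, Matrix.one_mul, add_sub_cancel]
  unfold tH
  have e3 : ((act σ h.hσ2 A H : HermG l σ) : Matrix l l F) = (A : Matrix l l F) * (H : Matrix l l F) * ad σ (A : Matrix l l F) := rfl
  rw [mul_add, add_mul, mul_one, one_mul, Matrix.mul_smul, Matrix.smul_mul, e3]
  congr 2
  calc lev σ M N D (A : Matrix l l F) (ad σ A') Δ * (M * (H : Matrix l l F) * ad σ M)
      = (lev σ M N D (A : Matrix l l F) (ad σ A') Δ * M) * ((H : Matrix l l F) * ad σ M) := by simp only [Matrix.mul_assoc]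
    _ = M * (A : Matrix l l F) * ((H : Matrix l l F) * ((ad σ (A : Matrix l l F) * ad σ A') * ad σ M)) := by
        rw [e1, h3, Matrix.one_mul]
    _ = M * ((A : Matrix l l F) * (H : Matrix l l F) * ad σ (A : Matrix l l F)) * (ad σ A' * ad σ M) := by
        simp only [Matrix.mul_assoc]
    _ = _ := by rw [← e2]; simp only [Matrix.mul_assoc]

end CfsgLib.WtU
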