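import Cfsg.Agent.LibWt2

/-! counting hermitian forms (helper26) -/
set_option autoImplicit false
set_option linter.unusedSectionVars false

namespace CfsgLib.WtH

open Matrix CfsgLib.WtQ

variable {l : Type} [Fintype l] [DecidableEq l] {F : Type*} [Field F] {σ : F ≃+* F}

structure HF (σ : F ≃+* F) (β : (l → F) → (l → F) → F) : Prop where
  add_left : ∀ x y z, β (x + y) z = β x z + β y z
  smul_left : ∀ (c : F) x y, β (c • x) y = c * β x y
  herm : ∀ x y, β x y = σ (β y x)

theorem HF.add_right {β : (l → F) → (l → F) → F} (h : HF σ β) (x y z : l → F) : β x (y + z) = β x y + β x z := by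
  rw [h.herm, h.add_left, map_add, ← h.herm, ← h.herm]

theorem HF.smul_right {β : (l → F) → (l → F) → F} (h : HF σ β) (c : F) (x y : l → F) : β x (c • y) = σ c * β x y := by
  rw [h.herm, h.smul_left, map_mul, ← h.herm]

theorem HF.comp {β : (l → F) → (l → F) → F} (h : HF σ β) (A : Matrix l l F) : HF σ (fun x y => β (A *ᵥ x) (A *ᵥ y)) := by
  refine ⟨fun x y z => ?_, fun c x y => ?_, fun x y => h.herm _ _⟩
  · simp only [mulVec_add, h.add_left]
  · simp only [mulVec_smul, h.smul_left]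

theorem HF.zero_left {β : (l → F) → (l → F) → F} (h : HF σ β) (y : l → F) : β 0 y = 0 := by
  have := h.smul_left 0 0 y
  simpa using this

theorem HF.exists_vec {β : (l → F) → (l → F) → F} (h : HF σ β) (y : l → F) : ∃ b : l → F, ∀ x, β x y = b ⬝ᵥ x := by
  refine ⟨fun i => β (Pi.single i 1) y, fun x => ?_⟩
  let φ : (l → F) →ₗ[F] F :=
    { toFun := fun x => β x y
      map_add' := fun x z => h.add_left x z y
      map_smul' := fun a x => h.smul_left a x y }
  have h1 : φ x = ∑ i, x i • φ (Pi.single i 1) := by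
    conv_lhs => rw [← Finset.univ_sum_single x]
    rw [map_sum]
    refine Finset.sum_congr rfl fun i _ => ?_
    rw [← map_smul]
    congr 1
    ext k
    by_cases h : k = i
    · subst h; simp
    · simp [h]
  change φ x = _
  rw [h1, dotProduct]
  exact Finset.sum_congr rfl fun i _ => mul_comm _ _

/-- stability -/
structure StabU (Λ : Set (GL l F)) (X : Finset ((l → F) → (l → F) → F)) : Prop where
  stab : ∀ β ∈ X, ∀ A ∈ Λ, (fun x y => β ((A : Matrix l l F) *ᵥ x) ((A : Matrix l l F) *ᵥ y)) ∈ X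
  trans : ∀ x u : l → F, x ≠ 0 → u ≠ 0 → ∃ A ∈ Λ, (A : Matrix l l F) *ᵥ x = u
  tv : ∀ a x : l → F, a ⬝ᵥ x = 0 → ∃ A ∈ Λ, ∀ z, (A : Matrix l l F) *ᵥ z = z + (a ⬝ᵥ z) • x

open Classical in
theorem card_Yherm [Fintype F] {Λ : Set (GL l F)} {X : Finset ((l → F) → (l → F) → F)} (hX : StabU Λ X)
    (hQ : ∀ β ∈ X, HF σ β) {x : l → F} (hx : x ≠ 0) (Γ : Finset F) (hΓ : ∀ γ ∈ Γ, γ ≠ 0 ∧ ∃ β ∈ X, β x x = γ) {h : ℕ}
    (hh : h * Fintype.card F = Fintype.card F ^ Fintype.card l) :
    Γ.card * h ≤ (X.filter fun β => β x x ≠ 0).card := by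
  set H : Finset (l → F) := Finset.univ.filter fun a => a ⬝ᵥ x = 0 with hH
  have hHc : H.card = h := by
    have := card_hyper (F := F) hx
    have h3 : H.card * Fintype.card F = h * Fintype.card F := by rw [hh, ← this]
    exact Nat.eq_of_mul_eq_mul_right Fintype.card_pos h3
  have hx0 : ∀ b, b ∈ H → b ⬝ᵥ x = 0 := fun b hb => by
    rw [hH, Finset.mem_filter] at hb; exact hb.2
  have hT : ∀ a : l → F, a ∈ H → ∃ A : GL l F, A ∈ Λ ∧ ∀ z, (A : Matrix l l F) *ᵥ z = z + (a ⬝ᵥ z) • x :=
    fun a ha => hX.tv a x (hx0 a ha)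
  choose! T hTΛ hT using hT
  choose! f hfX hfx using fun γ hγ => (hΓ γ hγ).2
  rw [← hHc, ← Finset.card_product]
  refine Finset.card_le_card_of_injOn
    (fun p => fun y z => f p.1 ((T p.2 : Matrix l l F) *ᵥ y) ((T p.2 : Matrix l l F) *ᵥ z)) ?_ ?_
  · rintro ⟨γ, a⟩ hp
    rw [Finset.mem_coe, Finset.mem_product] at hp
    rw [Finset.mem_coe, Finset.mem_filter]
    refine ⟨hX.stab _ (hfX _ hp.1) _ (hTΛ a hp.2), ?_⟩
    simp only
    rw [hT a hp.2, hx0 a hp.2, zero_smul, add_zero, hfx γ hp.1]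
    exact (hΓ γ hp.1).1
  · rintro ⟨γ, a⟩ hp ⟨γ', a'⟩ hp' heq
    rw [Finset.mem_coe, Finset.mem_product] at hp hp'
    simp only at hp hp' heq
    have e1 : γ = γ' := by
      have := congrFun (congrFun heq x) x
      rw [hT a hp.2, hx0 a hp.2, zero_smul, add_zero, hfx γ hp.1, hT a' hp'.2, hx0 a' hp'.2, zero_smul, add_zero,
        hfx γ' hp'.1] at this
      exact this
    subst e1
    have e2 : ∀ y, a ⬝ᵥ y = a' ⬝ᵥ y := by
      intro y
      have h3 : ∀ b ∈ H, f γ ((T b : Matrix l l F) *ᵥ y) ((T b : Matrix l l F) *ᵥ x) = f γ y x + (b ⬝ᵥ y) * γ := by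
        intro b hb
        rw [hT b hb x, hx0 b hb, zero_smul, add_zero, hT b hb, (hQ _ (hfX _ hp.1)).add_left,
          (hQ _ (hfX _ hp.1)).smul_left, hfx γ hp.1]
      have h4 := h3 a hp.2
      have h5 := h3 a' hp'.2
      have h6 := congrFun (congrFun heq y) x
      rw [h4, h5] at h6
      exact mul_right_cancel₀ (hΓ γ hp.1).1 (add_left_cancel h6)
    have e3 : a = a' := by
      ext i
      have := e2 (Pi.single i 1)
      simpa using this
    rw [e3]

open Classical in
theorem count_herm [Fintype F] {q : ℕ} (hF : Fintype.card F = q ^ 2) (hσ : ∀ x, σ x = x ^ q)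
    (hnorm : ∀ c : F, σ c = c → ∃ y : F, y * σ y = c)
    (hl : 1 ≤ Fintype.card l) {Λ : Set (GL l F)} {X : Finset ((l → F) → (l → F) → F)} (hX : StabU Λ X)
    (hQ : ∀ β ∈ X, HF σ β) (hne : ∃ β ∈ X, ∃ x, β x x ≠ 0) :
    (q ^ 2) ^ Fintype.card l - 1 ≤ (q + 1) * (X.filter fun β => ∃ x, β x x ≠ 0).card := by
  obtain ⟨β₀, hβ₀, u, hu⟩ := hne
  obtain ⟨k, hk⟩ := Nat.exists_eq_add_of_le hl
  have hQ1 : 1 < q ^ 2 := by rw [← hF]; exact Fintype.one_lt_card
  have hq1 : 1 < q := by
    by_contra hcon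
    have : q ^ 2 ≤ 1 ^ 2 := Nat.pow_le_pow_left (by omega) 2
    omega
  set h := (q ^ 2) ^ k with hh
  have hh0 : 0 < h := pow_pos (by omega) _
  have hn : (q ^ 2) ^ Fintype.card l = q ^ 2 * h := by rw [hk, pow_add, pow_one]
  set X' := X.filter fun β => ∃ x, β x x ≠ 0 with hX'
  have hdc := Finset.sum_card_bipartiteAbove_eq_sum_card_bipartiteBelow (s := (Finset.univ.erase (0 : l → F))) (t := X')
    (fun x β => β x x ≠ 0)
  simp only [Finset.bipartiteAbove, Finset.bipartiteBelow] at hdc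
  have h8 : (Finset.univ.erase (0 : l → F)).card = q ^ 2 * h - 1 := by
    rw [Finset.card_erase_of_mem (Finset.mem_univ _), Finset.card_univ, Fintype.card_fun, hF, hn]
  have hYX : ∀ x : l → F, (X.filter fun β => β x x ≠ 0).card ≤ (X'.filter fun β => β x x ≠ 0).card := by
    intro x
    refine Finset.card_le_card ?_
    intro β hβ
    rw [Finset.mem_filter] at hβ
    rw [hX', Finset.mem_filter, Finset.mem_filter]
    exact ⟨⟨hβ.1, x, hβ.2⟩, hβ.2⟩
  have hu0 : u ≠ 0 := by
    rintro rfl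
    exact hu ((hQ β₀ hβ₀).zero_left _)
  -- number of values
  set Γ : Finset F := (Finset.univ.erase (0 : F)).image fun c => c * σ c * β₀ u u with hΓd
  have hΓc : q ^ 2 - 1 ≤ (q + 1) * Γ.card := by
    have h1 := Finset.card_le_mul_card_image (f := fun c : F => c * σ c * β₀ u u) (Finset.univ.erase (0 : F)) (q + 1) (by
      intro a ha
      rw [Finset.mem_image] at ha
      obtain ⟨c, hc, rfl⟩ := ha
      have hc0 := Finset.ne_of_mem_erase hc
      refine le_trans (Finset.card_le_card (t := (Polynomial.nthRoots (q + 1) (c * σ c)).toFinset) ?_) ?_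
      · intro d hd
        rw [Finset.mem_filter] at hd
        rw [Multiset.mem_toFinset, Polynomial.mem_nthRoots (by omega)]
        have h3 := mul_right_cancel₀ hu hd.2
        rw [← h3, hσ, pow_succ]
        ring
      · exact (Multiset.toFinset_card_le _).trans (Polynomial.card_nthRoots _ _))
    rwa [Finset.card_erase_of_mem (Finset.mem_univ _), Finset.card_univ, hF] at h1
  have hY : ∀ x ∈ (Finset.univ.erase (0 : l → F)), Γ.card * h ≤ (X'.filter fun β => β x x ≠ 0).card := by
    intro x hx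
    refine le_trans (card_Yherm hX hQ (Finset.ne_of_mem_erase hx) Γ (fun γ hγ => ?_) (by rw [hF, hn, mul_comm])) (hYX x)
    rw [hΓd, Finset.mem_image] at hγ
    obtain ⟨c, hc, rfl⟩ := hγ
    have hc0 := Finset.ne_of_mem_erase hc
    refine ⟨mul_ne_zero (mul_ne_zero hc0 ((map_ne_zero σ).mpr hc0)) hu, ?_⟩
    obtain ⟨A, hA, hAx⟩ := hX.trans x (c • u) (Finset.ne_of_mem_erase hx) (smul_ne_zero hc0 hu0)
    refine ⟨_, hX.stab β₀ hβ₀ A hA, ?_⟩
    rw [hAx, (hQ β₀ hβ₀).smul_left, (hQ β₀ hβ₀).smul_right]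
    ring
  have hZ : ∀ β ∈ X', ((Finset.univ.erase (0 : l → F)).filter fun x => β x x ≠ 0).card ≤ q ^ 2 * h - h := by
    intro β hβ
    rw [hX', Finset.mem_filter] at hβ
    obtain ⟨hβX, e, he⟩ := hβ
    have hQf := hQ β hβX
    obtain ⟨b, hb⟩ := hQf.exists_vec e
    have hb0 : b ≠ 0 := by
      rintro rfl
      have := hb e
      rw [zero_dotProduct] at this
      exact he this
    have hfix : ∀ z, σ (β z z) = β z z := fun z => (hQf.herm z z).symm
    have hz : ∀ z : l → F, ∃ a : F, a * σ a = - β z z / β e e := by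
      intro z
      refine hnorm _ ?_
      rw [map_div₀, map_neg, hfix, hfix]
    choose a ha using hz
    have h1 := card_hyper (F := F) hb0
    rw [hF, hn, mul_comm] at h1
    have h3 := Nat.eq_of_mul_eq_mul_left (show 0 < q ^ 2 by omega) h1
    have h4 : ((Finset.univ.erase (0 : l → F)).filter fun x => β x x ≠ 0).card ≤ (Finset.univ.filter fun x => β x x ≠ 0).card :=
      Finset.card_le_card (Finset.filter_subset_filter _ (Finset.erase_subset _ _))
    have h5 := Finset.card_filter_add_card_filter_not (s := (Finset.univ : Finset (l → F))) (fun x => β x x ≠ 0)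
    rw [Finset.card_univ, Fintype.card_fun, hF, hn] at h5
    have h6 : h ≤ (Finset.univ.filter fun x : l → F => ¬ β x x ≠ 0).card := by
      rw [← h3]
      refine Finset.card_le_card_of_injOn (fun z => z + a z • e) ?_ ?_
      · intro z hz
        simp only [Finset.coe_filter, Finset.mem_univ, true_and, Set.mem_ofPred_eq] at hz ⊢
        rw [not_not]
        have hze : β z e = 0 := by rw [hb, dotProduct_comm]; exact hz
        have hez : β e z = 0 := by rw [hQf.herm, hze, map_zero]
        rw [hQf.add_left, hQf.add_right, hQf.add_right, hQf.smul_left, hQf.smul_left, hQf.smul_right, hQf.smul_right,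
          hze, hez]
        have := ha z
        field_simp at this
        linear_combination this
      · intro z hz z' hz' hzz'
        simp only [Finset.coe_filter, Finset.mem_univ, true_and, Set.mem_ofPred_eq] at hz hz'
        simp only at hzz'
        have h7 := congrArg (fun v => β v e) hzz'
        have hze : β z e = 0 := by rw [hb, dotProduct_comm]; exact hz
        have hze' : β z' e = 0 := by rw [hb, dotProduct_comm]; exact hz'
        simp only [hQf.add_left, hQf.smul_left, hze, hze', zero_add] at h7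
        have h9 : a z = a z' := mul_right_cancel₀ he h7
        rw [h9] at hzz'
        exact add_right_cancel hzz'
    omega
  have h6 : (q ^ 2 * h - 1) * (Γ.card * h) ≤ X'.card * (q ^ 2 * h - h) := by
    rw [← h8, ← smul_eq_mul]
    refine (Finset.card_nsmul_le_sum _ _ _ hY).trans ?_
    rw [hdc]
    rw [← smul_eq_mul]
    exact Finset.sum_le_card_nsmul _ _ _ hZ
  rw [hn]
  have e1 : q ^ 2 * h - h = (q ^ 2 - 1) * h := by rw [Nat.sub_mul, one_mul]
  rw [e1] at h6
  have h7 : (h * (q ^ 2 - 1)) * (q ^ 2 * h - 1) ≤ (h * (q ^ 2 - 1)) * ((q + 1) * X'.card) := by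
    calc (h * (q ^ 2 - 1)) * (q ^ 2 * h - 1) ≤ (h * ((q + 1) * Γ.card)) * (q ^ 2 * h - 1) :=
          Nat.mul_le_mul_right _ (Nat.mul_le_mul_left _ hΓc)
      _ = (q + 1) * ((q ^ 2 * h - 1) * (Γ.card * h)) := by ring
      _ ≤ (q + 1) * (X'.card * ((q ^ 2 - 1) * h)) := Nat.mul_le_mul_left _ h6
      _ = (h * (q ^ 2 - 1)) * ((q + 1) * X'.card) := by ring
  exact Nat.le_of_mul_le_mul_left h7 (Nat.mul_pos hh0 (by omega))

theorem exists_sep {x u : l → F} (h : u ∉ Submodule.span F {x}) : ∃ a : l → F, a ⬝ᵥ x = 0 ∧ a ⬝ᵥ u = 1 := by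
  obtain ⟨φ, hφ1, hφ2⟩ := Submodule.exists_dual_map_eq_bot_of_notMem h inferInstance
  have hφx : φ x = 0 := by
    have : φ x ∈ (Submodule.span F {x}).map φ := Submodule.mem_map_of_mem (Submodule.mem_span_singleton_self x)
    rw [hφ2] at this
    exact this
  have hdot : ∀ z : l → F, (fun i => (φ u)⁻¹ * φ (Pi.single i 1)) ⬝ᵥ z = (φ u)⁻¹ * φ z := by
    intro z
    have h1 : φ z = ∑ i, z i • φ (Pi.single i 1) := by
      conv_lhs => rw [← Finset.univ_sum_single z]
      rw [map_sum]
      refine Finset.sum_congr rfl fun i _ => ?_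
      rw [← map_smul]
      congr 1
      ext k
      by_cases h : k = i
      · subst h; simp
      · simp [h]
    rw [h1, dotProduct, Finset.mul_sum]
    exact Finset.sum_congr rfl fun i _ => by rw [smul_eq_mul]; ring
  exact ⟨_, by rw [hdot, hφx, mul_zero], by rw [hdot, inv_mul_cancel₀ hφ1]⟩

theorem exists_T' (a u : l → F) (h : a ⬝ᵥ u = 0) :
    ∃ A : GL l F, (A : Matrix l l F).det = 1 ∧ ∀ z, (A : Matrix l l F) *ᵥ z = z + (a ⬝ᵥ z) • u :=
  ⟨Matrix.GeneralLinearGroup.mkOfDetNeZero (1 + vecMulVec u a) (by rw [det_T, h, add_zero]; exact one_ne_zero), by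
    change (1 + vecMulVec u a : Matrix l l F).det = 1
    rw [det_T, h, add_zero], fun z => T_mulVec a u z⟩

theorem move_step {x u : l → F} (hx : x ≠ 0) (h : u ∉ Submodule.span F {x}) :
    ∃ A : GL l F, (A : Matrix l l F).det = 1 ∧ (A : Matrix l l F) *ᵥ x = u := by
  obtain ⟨a, ha, -⟩ := exists_dual hx hx
  obtain ⟨b, hb1, hb2⟩ := exists_sep h
  obtain ⟨A, hA1, hA2⟩ := exists_T' (a + (1 - a ⬝ᵥ u) • b) (u - x) (by
    rw [dotProduct_sub, add_dotProduct, add_dotProduct, smul_dotProduct, smul_dotProduct, hb1, hb2, ha]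
    simp)
  refine ⟨A, hA1, ?_⟩
  rw [hA2, add_dotProduct, smul_dotProduct, hb1, ha, smul_zero, add_zero, one_smul, add_sub_cancel]

/-- transitivity for `SL` -/
theorem exists_move_sl (hl : 2 ≤ Fintype.card l) {x u : l → F} (hx : x ≠ 0) (hu : u ≠ 0) :
    ∃ A : GL l F, (A : Matrix l l F).det = 1 ∧ (A : Matrix l l F) *ᵥ x = u := by
  by_cases h : u ∈ Submodule.span F {x}
  · have hne : (Submodule.span F {x} : Submodule F (l → F)) ≠ ⊤ := by
      intro htop
      have h1 : Module.finrank F (Submodule.span F {x} : Submodule F (l → F)) = 1 := finrank_span_singleton hx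
      rw [htop, finrank_top, Module.finrank_fintype_fun_eq_card] at h1
      omega
    obtain ⟨v, hv⟩ : ∃ v : l → F, v ∉ Submodule.span F {x} := by
      by_contra hcon
      push Not at hcon
      exact hne (eq_top_iff.mpr fun v _ => hcon v)
    have hv0 : v ≠ 0 := by
      rintro rfl
      exact hv (Submodule.zero_mem _)
    have huv : u ∉ Submodule.span F {v} := by
      intro h2
      obtain ⟨c, hc⟩ := Submodule.mem_span_singleton.mp h2
      obtain ⟨d, hd⟩ := Submodule.mem_span_singleton.mp h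
      have hc0 : c ≠ 0 := by
        rintro rfl
        rw [zero_smul] at hc
        exact hu hc.symm
      apply hv
      rw [Submodule.mem_span_singleton]
      refine ⟨c⁻¹ * d, ?_⟩
      rw [mul_smul, hd, ← hc, smul_smul, inv_mul_cancel₀ hc0, one_smul]
    obtain ⟨A, hA1, hA2⟩ := move_step hx hv
    obtain ⟨B, hB1, hB2⟩ := move_step hv0 huv
    refine ⟨B * A, ?_, ?_⟩
    · rw [Units.val_mul, det_mul, hA1, hB1, mul_one]
    · rw [Units.val_mul, ← mulVec_mulVec, hA2, hB2]
  · exact move_step hx h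

end CfsgLib.WtH
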