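import Cfsg.Agent.LibWt7
import Cfsg.Agent.LibWt8
import Cfsg.Agent.LibWt5

/-! weights of the group of hermitian matrices (helper26) -/
set_option autoImplicit false
set_option linter.unusedSectionVars false

namespace CfsgLib.WtU

open Matrix Module CfsgLib.Wt CfsgLib.WtQ CfsgLib.WtH CfsgLib.WtSp

variable {l : Type} [Fintype l] [DecidableEq l] {F : Type*} [Field F] {σ : F ≃+* F}

/-- x y* -/
def out (σ : F ≃+* F) (x y : l → F) : Matrix l l F := vecMulVec x (fun i => σ (y i))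

theorem ad_out (hσ2 : ∀ x, σ (σ x) = x) (x y : l → F) : ad σ (out σ x y) = out σ y x := by
  ext i j
  simp [ad_apply, out, vecMulVec_apply, hσ2, mul_comm]

theorem out_add_left (x y z : l → F) : out σ (x + y) z = out σ x z + out σ y z := by
  unfold out; rw [add_vecMulVec]

theorem out_smul_left (c : F) (x y : l → F) : out σ (c • x) y = c • out σ x y := by
  unfold out; rw [smul_vecMulVec]

theorem out_add_right (x y z : l → F) : out σ x (y + z) = out σ x y + out σ x z := by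
  ext i j; simp [out, vecMulVec_apply, mul_add]

theorem out_smul_right (c : F) (x y : l → F) : out σ x (c • y) = σ c • out σ x y := by
  ext i j; simp [out, vecMulVec_apply]; ring

theorem mul_out (A : Matrix l l F) (x y : l → F) : A * out σ x y * ad σ A = out σ (A *ᵥ x) (A *ᵥ y) := by
  unfold out
  rw [mul_vecMulVec, vecMulVec_mul]
  congr 1
  ext i
  simp only [vecMul, dotProduct, ad_apply, mulVec, map_sum, map_mul]
  exact Finset.sum_congr rfl fun j _ => mul_comm _ _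

def rk (hσ2 : ∀ x, σ (σ x) = x) (x y : l → F) (a : F) : HermG l σ := ⟨a • out σ x y + σ a • out σ y x, by
  change ad σ (a • out σ x y + σ a • out σ y x) = _
  rw [ad_add, ad_smul, ad_smul, ad_out hσ2, ad_out hσ2, hσ2, add_comm]⟩

variable (hσ2 : ∀ x, σ (σ x) = x)

theorem rk_val (x y : l → F) (a : F) : (rk hσ2 x y a : Matrix l l F) = a • out σ x y + σ a • out σ y x := rfl

theorem rk_add (x y : l → F) (a b : F) : rk hσ2 x y (a + b) = rk hσ2 x y a + rk hσ2 x y b := by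
  apply Subtype.ext
  change (a + b) • out σ x y + σ (a + b) • out σ y x = (a • out σ x y + σ a • out σ y x) + (b • out σ x y + σ b • out σ y x)
  rw [map_add, add_smul, add_smul]; abel

theorem rk_add_left (x y z : l → F) (a : F) : rk hσ2 (x + y) z a = rk hσ2 x z a + rk hσ2 y z a := by
  apply Subtype.ext
  change a • out σ (x + y) z + σ a • out σ z (x + y) = (a • out σ x z + σ a • out σ z x) + (a • out σ y z + σ a • out σ z y)
  rw [out_add_left, out_add_right, smul_add, smul_add]; abel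

theorem rk_smul_left (c : F) (x y : l → F) (a : F) : rk hσ2 (c • x) y a = rk hσ2 x y (c * a) := by
  apply Subtype.ext
  change a • out σ (c • x) y + σ a • out σ y (c • x) = (c * a) • out σ x y + σ (c * a) • out σ y x
  rw [out_smul_left, out_smul_right, smul_smul, smul_smul, map_mul, mul_comm a, mul_comm (σ a)]

theorem rk_swap (x y : l → F) (a : F) : rk hσ2 x y a = rk hσ2 y x (σ a) := by
  apply Subtype.ext
  change a • out σ x y + σ a • out σ y x = σ a • out σ y x + σ (σ a) • out σ x y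
  rw [hσ2, add_comm]

theorem act_rk (A : GL l F) (x y : l → F) (a : F) :
    act σ hσ2 A (rk hσ2 x y a) = rk hσ2 ((A : Matrix l l F) *ᵥ x) ((A : Matrix l l F) *ᵥ y) a := by
  apply Subtype.ext
  change (A : Matrix l l F) * (a • out σ x y + σ a • out σ y x) * ad σ (A : Matrix l l F) = _
  rw [Matrix.mul_add, Matrix.add_mul, Matrix.mul_smul, Matrix.mul_smul, Matrix.smul_mul, Matrix.smul_mul, mul_out, mul_out]
  rfl

section forms

variable [Finite F]

/-- an invariant character -/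
theorem exists_psi_inv (hσ2 : ∀ x, σ (σ x) = x) {τ : F} (hτ : τ + σ τ = 1) : ∃ ψ : AddChar F ℂ, ψ ≠ 1 ∧ ∀ x, ψ (σ x) = ψ x := by
  obtain ⟨ψ, hψ⟩ := (AddChar.exists_apply_ne_zero (α := F) (a := 1)).mpr one_ne_zero
  refine ⟨⟨fun z => ψ (z + σ z), by simp [AddChar.map_zero_eq_one], fun a b => ?_⟩, ?_, fun x => ?_⟩
  · change ψ ((a + b) + σ (a + b)) = ψ (a + σ a) * ψ (b + σ b)
    rw [σ.map_add, ← AddChar.map_add_eq_mul]
    congr 1; abel
  · intro h
    have := congrArg (fun χ : AddChar F ℂ => χ τ) h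
    change ψ (τ + σ τ) = 1 at this
    rw [hτ] at this
    exact hψ this
  · change ψ (σ x + σ (σ x)) = ψ (x + σ x)
    rw [hσ2, add_comm]

variable {ψ : AddChar F ℂ}

theorem exists_bq (hψ : ψ ≠ 1) (χ : AddChar (HermG l σ) ℂ) :
    ∃ β : (l → F) → (l → F) → F, ∀ x y a, χ (rk hσ2 x y a) = ψ (β x y * a) := by
  have h : ∀ x y : l → F, ∃ b : F, ∀ a, χ (rk hσ2 x y a) = ψ (b * a) := by
    intro x y
    exact psi_surj hψ ⟨fun a => χ (rk hσ2 x y a), by
      have : rk hσ2 x y (0 : F) = 0 := by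
        apply Subtype.ext
        rw [rk_val, map_zero, zero_smul, zero_smul, add_zero]; rfl
      rw [this, AddChar.map_zero_eq_one], fun c d => by rw [rk_add, AddChar.map_add_eq_mul]⟩
  choose f hf using h
  exact ⟨f, hf⟩

noncomputable def bq (hψ : ψ ≠ 1) (χ : AddChar (HermG l σ) ℂ) : (l → F) → (l → F) → F := (exists_bq hσ2 hψ χ).choose

theorem bq_spec (hψ : ψ ≠ 1) (χ : AddChar (HermG l σ) ℂ) (x y : l → F) (a : F) :
    χ (rk hσ2 x y a) = ψ (bq hσ2 hψ χ x y * a) := (exists_bq hσ2 hψ χ).choose_spec x y a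

theorem bq_HF (hψ : ψ ≠ 1) (hinv : ∀ x, ψ (σ x) = ψ x) (χ : AddChar (HermG l σ) ℂ) : HF σ (bq hσ2 hψ χ) := by
  refine ⟨fun x y z => psi_inj hψ fun c => ?_, fun a x y => psi_inj hψ fun c => ?_, fun x y => psi_inj hψ fun c => ?_⟩
  · rw [← bq_spec, rk_add_left, AddChar.map_add_eq_mul, bq_spec hσ2 hψ, bq_spec hσ2 hψ, ← AddChar.map_add_eq_mul]
    congr 1; ring
  · rw [← bq_spec, rk_smul_left, bq_spec hσ2 hψ]
    congr 1; ring
  · rw [← bq_spec, rk_swap, bq_spec hσ2 hψ, ← hinv, map_mul, hσ2]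

theorem bq_comp (hψ : ψ ≠ 1) (χ : AddChar (HermG l σ) ℂ) (A : GL l F) :
    bq hσ2 hψ (χ.compAddMonoidHom (act σ hσ2 A)) =
      fun x y => bq hσ2 hψ χ ((A : Matrix l l F) *ᵥ x) ((A : Matrix l l F) *ᵥ y) := by
  funext x y
  refine psi_inj hψ fun c => ?_
  rw [← bq_spec, AddChar.compAddMonoidHom_apply, act_rk, bq_spec hσ2 hψ]

end forms

open Classical in
theorem weightsU [Fintype F] {q : ℕ} (hF : Fintype.card F = q ^ 2) (hσ : ∀ x, σ x = x ^ q)
    (hnorm : ∀ c : F, σ c = c → ∃ y : F, y * σ y = c) {τ : F} (hτ : τ + σ τ = 1) (hl : 1 ≤ Fintype.card l)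
    {G V : Type*} [Group G] [AddCommGroup V] [Module ℂ V] [FiniteDimensional ℂ V]
    (ρ : Representation ℂ G V) (j : Multiplicative (HermG l σ) →* G) (Λ : Set (GL l F))
    (hΛ : ∀ A ∈ Λ, ∃ g : G, ∀ H, g * j (Multiplicative.ofAdd H) * g⁻¹ = j (Multiplicative.ofAdd (act σ hσ2 A H)))
    (htr : ∀ x u : l → F, x ≠ 0 → u ≠ 0 → ∃ A ∈ Λ, (A : Matrix l l F) *ᵥ x = u)
    (htv : ∀ a x : l → F, a ⬝ᵥ x = 0 → ∃ A ∈ Λ, ∀ z, (A : Matrix l l F) *ᵥ z = z + (a ⬝ᵥ z) • x)
    (d : ℕ) (hd : ∀ χ : AddChar (HermG l σ) ℂ, wt ρ j χ ≠ ⊥ → (∃ x a, χ (rk hσ2 x x a) ≠ 1) → d ≤ finrank ℂ (wt ρ j χ))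
    (hne : ∃ x a, ρ (j (Multiplicative.ofAdd (rk hσ2 x x a))) ≠ 1) :
    ∃ N : ℕ, (q ^ 2) ^ Fintype.card l - 1 ≤ (q + 1) * N ∧ d * N ≤ finrank ℂ V := by
  obtain ⟨ψ, hψ, hinv⟩ := exists_psi_inv hσ2 hτ
  set W : Finset (AddChar (HermG l σ) ℂ) := Finset.univ.filter fun χ => wt ρ j χ ≠ ⊥ with hW
  set X := W.image (bq hσ2 hψ) with hX
  have hstab : StabU Λ X := by
    refine ⟨fun β hβ A hA => ?_, htr, htv⟩
    rw [hX, Finset.mem_image] at hβ ⊢
    obtain ⟨χ, hχ, rfl⟩ := hβ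
    obtain ⟨g, hg⟩ := hΛ A hA
    refine ⟨χ.compAddMonoidHom (act σ hσ2 A), ?_, bq_comp hσ2 hψ χ A⟩
    rw [hW, Finset.mem_filter] at hχ ⊢
    exact ⟨Finset.mem_univ _, wt_comp_ne_bot ρ j g (act σ hσ2 A) hg χ hχ.2⟩
  have hHF : ∀ β ∈ X, HF σ β := by
    intro β hβ
    rw [hX, Finset.mem_image] at hβ
    obtain ⟨χ, hχ, rfl⟩ := hβ
    exact bq_HF hσ2 hψ hinv χ
  have hex : ∃ β ∈ X, ∃ x, β x x ≠ 0 := by
    by_contra hcon
    push Not at hcon
    obtain ⟨x, a, hxa⟩ := hne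
    apply hxa
    refine apply_eq_of_forall ρ j _ fun χ hχ => ?_
    rw [bq_spec hσ2 hψ, hcon _ (Finset.mem_image_of_mem _ (Finset.mem_filter.mpr ⟨Finset.mem_univ _, hχ⟩)) x, zero_mul,
      AddChar.map_zero_eq_one]
  have hcount := count_herm hF hσ hnorm hl hstab hHF hex
  set W' := W.filter fun χ => ∃ x a, χ (rk hσ2 x x a) ≠ 1 with hW'
  refine ⟨W'.card, hcount.trans (Nat.mul_le_mul_left _ ?_), ?_⟩
  · refine (Finset.card_le_card (t := W'.image (bq hσ2 hψ)) ?_).trans Finset.card_image_le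
    intro β hβ
    rw [Finset.mem_filter] at hβ
    obtain ⟨hβ, x, hx⟩ := hβ
    rw [hX, Finset.mem_image] at hβ
    obtain ⟨χ, hχ, rfl⟩ := hβ
    refine Finset.mem_image_of_mem _ (Finset.mem_filter.mpr ⟨hχ, x, ?_⟩)
    by_contra hcon
    push Not at hcon
    apply hx
    refine psi_inj hψ fun c => ?_
    rw [← bq_spec, hcon, zero_mul, AddChar.map_zero_eq_one]
  · refine mul_card_le ρ j W' d fun χ hχ => ?_
    rw [hW', Finset.mem_filter, hW, Finset.mem_filter] at hχ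
    exact hd χ hχ.1.2 hχ.2

end CfsgLib.WtU
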