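import Cfsg.Statements.S0089
import Cfsg.Agent.LibTransAb

set_option autoImplicit false
open Cfsg

namespace Cfsg.Agent.S0089

/-- When all Sylow subgroups are abelian, the derived subgroup meets the centre trivially. -/
theorem result {G : Type*} [Group G] [Finite G] (h : ∀ p : ℕ, p.Prime → ∀ P : Sylow p G, IsMulCommutative P) : commutator G ⊓ Subgroup.center G = ⊥ := by
  rw [eq_bot_iff]
  intro x hx
  rw [Subgroup.mem_bot]
  by_contra hx1
  obtain ⟨q, hq, hd⟩ := Nat.exists_prime_and_dvd (n := orderOf x) (by rwa [Ne, orderOf_eq_one_iff])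
  have : Fact q.Prime := ⟨hq⟩
  obtain ⟨y, hy, hyo⟩ : ∃ y ∈ Subgroup.zpowers x, orderOf y = q := by
    refine ⟨x ^ (orderOf x / q), Subgroup.npow_mem_zpowers _ _, ?_⟩
    exact orderOf_pow_orderOf_div (orderOf_pos x).ne' hd
  have hyG : y ∈ commutator G ⊓ Subgroup.center G := (Subgroup.zpowers_le.mpr hx) hy
  have hp : IsPGroup q (Subgroup.zpowers y) := IsPGroup.of_card (n := 1) (by
    rw [Nat.card_zpowers, hyo, pow_one])
  obtain ⟨P, hP⟩ := hp.exists_le_sylow
  have hyP : y ∈ (P : Subgroup G) := hP (Subgroup.mem_zpowers y)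
  have hco : Nat.Coprime (Nat.card (P : Subgroup G)) (P : Subgroup G).index := P.card_coprime_index
  have h1 := CfsgLib.TransAb.hall_inf_commutator_inf_center (P : Subgroup G) (h q hq P) hco
  have h2 : y ∈ (P : Subgroup G) ⊓ commutator G ⊓ Subgroup.center G :=
    Subgroup.mem_inf.mpr ⟨Subgroup.mem_inf.mpr ⟨hyP, (Subgroup.mem_inf.mp hyG).1⟩,
      (Subgroup.mem_inf.mp hyG).2⟩
  rw [h1, Subgroup.mem_bot] at h2
  rw [h2, orderOf_one] at hyo
  exact hq.one_lt.ne hyo

end Cfsg.Agent.S0089
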