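import Cfsg.Statements.S0115
import Cfsg.Agent.LibMaxClass3

set_option autoImplicit false
open Cfsg

namespace Cfsg.Agent.S0115

/-- A 2-group of order 2^n, n ≥ 3, is of maximal class exactly when its commutator quotient is a Klein four-group. -/
theorem result {X : Type*} [Group X] [Finite X] (n : ℕ) (hn : 3 ≤ n) (hX : Nat.card X = 2 ^ n) : Group.nilpotencyClass X = n - 1 ↔ IsKleinFour (X ⧸ commutator X) := by
  constructor
  · intro h
    exact CfsgLib.MaxClass.klein_of_index hn hX (CfsgLib.MaxClass.index_of_class_eq n X hX hn h)
  · intro h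
    exact CfsgLib.MaxClass.class_eq_of_index n X hX hn (by rw [Subgroup.index_eq_card]; exact h.card_four)

end Cfsg.Agent.S0115
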