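import Cfsg.Statements.S0158
import Cfsg.Agent.LibFS

set_option autoImplicit false
set_option linter.all false
open Cfsg

namespace Cfsg.Agent.S0158

open CfsgLib.CharBasic

/-- The Frobenius–Schur indicator of an irreducible complex representation of a finite group — the average over s of the character at s * s — is 0, 1 or −1, and it vanishes exactly when some character value is not real. -/
theorem result {G : Type*} [Group G] [Fintype G] {V : Type*} [AddCommGroup V] [Module ℂ V] [FiniteDimensional ℂ V] (ρ : Representation ℂ G V) [ρ.IsIrreducible] : ((Nat.card G : ℂ)⁻¹ * ∑ s : G, ρ.character (s * s) = 0 ∨ (Nat.card G : ℂ)⁻¹ * ∑ s : G, ρ.character (s * s) = 1 ∨ (Nat.card G : ℂ)⁻¹ * ∑ s : G, ρ.character (s * s) = -1) ∧ ((Nat.card G : ℂ)⁻¹ * ∑ s : G, ρ.character (s * s) = 0 ↔ ∃ s : G, (ρ.character s).im ≠ 0) := by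
  have hirr := isIrrCharacter_character ρ
  have h := CfsgLib.FS.fs_cases hirr
  rw [CfsgLib.FS.fsInd_eq] at h
  have e : (∀ g, (ρ.character g).im = 0) ↔ ¬ ∃ s : G, (ρ.character s).im ≠ 0 := by push Not; rfl
  rcases h with ⟨h1, h2⟩ | ⟨h1, h2⟩
  · refine ⟨Or.inl h1, ⟨fun _ => ?_, fun _ => h1⟩⟩
    push Not at h2
    exact h2
  · refine ⟨Or.inr h1, ⟨fun h3 => ?_, fun h3 => absurd h3 (e.mp h2)⟩⟩
    rw [h3] at h1
    rcases h1 with h1 | h1
    · exact absurd h1 zero_ne_one
    · norm_num at h1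

end Cfsg.Agent.S0158
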