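import Cfsg.Statements.S0160
import Cfsg.Agent.LibPermLemma

set_option autoImplicit false
set_option linter.all false
open Cfsg

namespace Cfsg.Agent.S0160

open CfsgLib.CharBasic

/-- A finite group has as many real-valued irreducible complex characters as conjugacy classes closed under taking inverses. -/
theorem result {G : Type*} [Group G] [Finite G] : Nat.card {χ : Cfsg.IrrCharacter G // ∀ g : G, ((χ : G → ℂ) g).im = 0} = Nat.card {C : ConjClasses G // ∀ g : G, ConjClasses.mk g = C → IsConj g g⁻¹} := by
  classical
  haveI := Fintype.ofFinite G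
  let π : IrrCharacter G → IrrCharacter G := fun χ => ⟨_, isIrrCharacter_conj χ.2⟩
  let σ : ConjClasses G → ConjClasses G := fun C => Quotient.liftOn C (fun g => ConjClasses.mk g⁻¹) (by
    intro a b hab
    obtain ⟨c, hc⟩ := isConj_iff.mp hab
    exact ConjClasses.mk_eq_mk_iff_isConj.mpr (isConj_iff.mpr ⟨c, by rw [← hc]; group⟩))
  have hσ : ∀ g : G, σ (ConjClasses.mk g) = ConjClasses.mk g⁻¹ := fun g => rfl
  have h := CfsgLib.PermLemma.brauer_perm σ π (by
    intro χ g g' hgg
    rw [hσ] at hgg
    have h1 := isClassFunction_iff_mem.mp (irr_classFun χ.2) g' g⁻¹ (ConjClasses.mk_eq_mk_iff_isConj.mp hgg)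
    rw [h1, char_inv_eq_conj (irr_isCharacter χ.2)])
  rw [Nat.card_congr (Equiv.subtypeEquivRight (q := fun χ : IrrCharacter G => π χ = χ) (fun χ => ?_)), h]
  · apply Nat.card_congr
    apply Equiv.subtypeEquivRight
    intro C
    obtain ⟨g, rfl⟩ := ConjClasses.exists_rep C
    constructor
    · intro hc x hx
      rw [hσ] at hc
      rw [← ConjClasses.mk_eq_mk_iff_isConj]
      have h2 : σ (ConjClasses.mk x) = ConjClasses.mk x := by rw [hx, hσ, hc]
      rw [hσ] at h2
      exact h2.symm
    · intro hc
      rw [hσ]
      exact (ConjClasses.mk_eq_mk_iff_isConj.mpr (hc g rfl)).symm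
  · constructor
    · intro hr
      apply Subtype.ext
      ext g
      exact Complex.conj_eq_iff_im.mpr (hr g)
    · intro hr g
      have := congrFun (congrArg Subtype.val hr) g
      exact Complex.conj_eq_iff_im.mp this

end Cfsg.Agent.S0160
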