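import Cfsg.Statements.S0218
import Mathlib

set_option autoImplicit false
open Cfsg

namespace Cfsg.Agent.S0218


/-- The generalized quaternion group of order 2^(n+3) contains exactly one element of order 2. -/
theorem result (n : ℕ) : Nat.card {x : QuaternionGroup (2 ^ (n + 1)) // orderOf x = 2} = 1 := by
  rw [Nat.card_eq_one_iff_unique]
  have hN : NeZero (2 ^ (n + 1)) := ⟨by positivity⟩
  have hord : orderOf (QuaternionGroup.a (2 ^ (n + 1) : ℕ) : QuaternionGroup (2 ^ (n + 1))) = 2 := by
    apply orderOf_eq_prime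
    · rw [pow_two, QuaternionGroup.a_mul_a, QuaternionGroup.one_def]
      congr 1
      have : ((2 * 2 ^ (n + 1) : ℕ) : ZMod (2 * 2 ^ (n + 1))) = 0 := ZMod.natCast_self _
      push_cast at this ⊢
      rw [← two_mul]
      exact this
    · intro h
      rw [QuaternionGroup.one_def] at h
      have h2 := QuaternionGroup.a.inj h
      rw [ZMod.natCast_eq_zero_iff] at h2
      have h3 := Nat.le_of_dvd (by positivity) h2
      have : 0 < 2 ^ (n + 1) := by positivity
      omega
  refine ⟨⟨?_⟩, ⟨⟨_, hord⟩⟩⟩
  have key : ∀ x : QuaternionGroup (2 ^ (n + 1)), orderOf x = 2 → x = QuaternionGroup.a ((2 ^ (n + 1) : ℕ) : ZMod (2 * 2 ^ (n + 1))) := by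
    rintro (i | i) hx
    · have h1 := pow_orderOf_eq_one (QuaternionGroup.a i)
      rw [hx, pow_two, QuaternionGroup.a_mul_a, QuaternionGroup.one_def] at h1
      have h2 := QuaternionGroup.a.inj h1
      have h3 : i ≠ 0 := by
        rintro rfl
        rw [← QuaternionGroup.one_def] at hx
        simp at hx
      congr 1
      -- i + i = 0 in ZMod (2m), i ≠ 0 → i = m
      have hi : ((i.val : ℕ) : ZMod (2 * 2 ^ (n + 1))) = i := ZMod.natCast_zmod_val i
      have h4 : ((i.val + i.val : ℕ) : ZMod (2 * 2 ^ (n + 1))) = 0 := by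
        push_cast; rw [hi]; exact h2
      rw [ZMod.natCast_eq_zero_iff] at h4
      obtain ⟨c, hc⟩ := h4
      have hlt : i.val < 2 * 2 ^ (n + 1) := ZMod.val_lt i
      have h0 : i.val ≠ 0 := by
        intro h0; apply h3; rw [← hi, h0]; simp
      have hc1 : c = 1 := by
        have hm : 0 < 2 ^ (n + 1) := by positivity
        have : c < 2 := by
          by_contra hcon
          have : 2 * 2 ^ (n + 1) * 2 ≤ 2 * 2 ^ (n + 1) * c := Nat.mul_le_mul_left _ (by omega)
          omega
        interval_cases c
        · omega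
        · rfl
      subst hc1
      rw [← hi]
      congr 1
      omega
    · rw [QuaternionGroup.orderOf_xa] at hx
      omega
  rintro ⟨x, hx⟩ ⟨y, hy⟩
  apply Subtype.ext
  simp only
  rw [key x hx, key y hy]
end Cfsg.Agent.S0218
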