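import Cfsg.Statements.S0300
import Cfsg.Agent.LibH22Exc4m

set_option autoImplicit false
open Cfsg

namespace Cfsg.Agent.S0300
open Cfsg.Agent.H22

lemma sl2_perfect {K : Type*} [Field K] [Fintype K] (h : 4 ≤ Fintype.card K) : commutator (Matrix.SpecialLinearGroup (Fin 2) K) = ⊤ := by
  classical
  obtain ⟨a, ha⟩ : ∃ a : K, a ≠ 0 ∧ a ≠ 1 ∧ a ≠ -1 := by
    by_contra hcon
    push Not at hcon
    have : (Finset.univ : Finset K) ⊆ {0, 1, -1} := by
      intro a _
      rw [Finset.mem_insert, Finset.mem_insert, Finset.mem_singleton]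
      by_cases h0 : a = 0
      · exact Or.inl h0
      by_cases h1 : a = 1
      · exact Or.inr (Or.inl h1)
      exact Or.inr (Or.inr (hcon a h0 h1))
    have h2 := Finset.card_le_card this
    have h3 : ({0, 1, -1} : Finset K).card ≤ 3 := Finset.card_le_three
    rw [Finset.card_univ] at h2
    omega
  refine Matrix.SL2.commutator_eq_top ha.1 ?_
  intro h
  rcases (mul_self_eq_one_iff (a := a)).1 (by rw [← pow_two]; exact h) with h | h
  · exact ha.2.1 h
  · exact ha.2.2 h

/-- PΩ^-_4(q) is isomorphic to PSL_2(q^2). -/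
theorem result {F K : Type*} [Field F] [Fintype F] [Field K] [Fintype K] {q : ℕ} (hF : Fintype.card F = q) (hK : Fintype.card K = q ^ 2) (a b : F) (hab : ∀ z₁ z₂ : F, z₁ ^ 2 + a * z₁ * z₂ + b * z₂ ^ 2 = 0 → z₁ = 0 ∧ z₂ = 0) : Nonempty (Cfsg.POmega F (Cfsg.quadFormMinus 1 F a b) ≃* Matrix.ProjectiveSpecialLinearGroup (Fin 2) K) := by
  classical
  subst hF
  obtain ⟨ι, θ, hθ⟩ := exists_ext hK a b hab
  letI : Algebra F K := ι.toAlgebra
  have hθ' : θ ^ 2 + algebraMap F K a * θ + algebraMap F K b = 0 := hθ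
  obtain ⟨h1, h2, h3⟩ := theta_bar hab hθ'
  obtain ⟨σ, hσ1⟩ := exists_rho4m hK hab hθ'
  have hq : 2 ≤ Fintype.card F := Fintype.one_lt_card
  have hK4 : 4 ≤ Fintype.card K := by
    rw [hK]; nlinarith
  have hker : ∀ g, σ g = 1 → g ∈ Subgroup.center (Matrix.SpecialLinearGroup (Fin 2) K) := by
    intro g hg
    apply herm_ker hK
    intro M hM
    obtain ⟨w, rfl⟩ := exists_hermV hK h1 hM
    rw [← hσ1, hg]; rfl
  have hker' : σ.ker = Subgroup.center (Matrix.SpecialLinearGroup (Fin 2) K) := by
    apply le_antisymm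
    · intro g hg; exact hker g hg
    · intro g hg
      rw [MonoidHom.mem_ker]
      apply og_ext
      intro w
      apply hermV_inj hK h1
      rw [hσ1]
      rw [Matrix.SpecialLinearGroup.mem_center_iff] at hg
      obtain ⟨r, hr, hrz⟩ := hg
      rw [Fintype.card_fin] at hr
      have hr1 : bar F r * r = 1 := by
        rcases (mul_self_eq_one_iff (a := r)).1 (by rw [← pow_two]; exact hr) with h | h
        · rw [h, map_one, one_mul]
        · rw [h, map_neg, map_one]; ring
      have h8 : st F (g : Matrix (Fin 2) (Fin 2) K) = Matrix.scalar (Fin 2) (bar F r) := by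
        rw [← hrz]
        ext i j
        rw [st_apply]
        fin_cases i <;> fin_cases j <;> simp
      rw [h8, ← hrz]
      ext i j
      fin_cases i <;> fin_cases j <;> simp [Matrix.mul_apply, Fin.sum_univ_two, Matrix.scalar_apply, Matrix.diagonal] <;> linear_combination (hermV F θ w _ _) * hr1
      
  have hle : σ.range ≤ commutator (OGrp (qMinus 1 F a b)) := by
    rintro _ ⟨g, rfl⟩
    have h3 : g ∈ commutator (Matrix.SpecialLinearGroup (Fin 2) K) := by
      rw [sl2_perfect hK4]; trivial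
    have h5 := Subgroup.mem_map_of_mem σ h3
    rw [commutator_def, Subgroup.map_commutator] at h5
    exact Subgroup.commutator_mono le_top le_top h5
  have hidx : σ.range.index = 2 * Nat.gcd 2 (Fintype.card F - 1) := by
    have h3 := range_index σ
    rw [hker', card_center_SL 2 (by norm_num), card_SL2, card_O_minus 1 a b hab, hK] at h3
    have h9 : Nat.gcd 2 (Fintype.card F ^ 2 - 1) = Nat.gcd 2 (Fintype.card F - 1) := by
      obtain ⟨r, hr⟩ : ∃ r, Fintype.card F = r + 1 := ⟨Fintype.card F - 1, by omega⟩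
      rw [hr]
      have : (r + 1) ^ 2 - 1 = r * r + 2 * r := by
        apply Nat.sub_eq_of_eq_add; ring
      rw [this, Nat.add_sub_cancel, Nat.gcd_add_mul_left_right]
      rcases Nat.even_or_odd r with h | h
      · rw [Nat.gcd_eq_left h.two_dvd, Nat.gcd_eq_left (h.two_dvd.mul_left r)]
      · rw [(Nat.coprime_two_left).2 h, (Nat.coprime_two_left).2 (h.mul h)]
    rw [h9] at h3
    obtain ⟨q, hqe⟩ : ∃ q, q = Fintype.card F := ⟨_, rfl⟩
    rw [← hqe] at h3 hq ⊢
    simp only [Finset.prod_range_one, one_pow, pow_one, zero_add, mul_one, Nat.reduceAdd] at h3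
    have h5 : q ^ 2 - 1 > 0 := by
      have : 2 ^ 2 ≤ q ^ 2 := Nat.pow_le_pow_left hq 2
      omega
    have h6 : 0 < q ^ 2 * ((q ^ 2 - 1) * (q ^ 2 + 1)) := Nat.mul_pos (by positivity) (Nat.mul_pos h5 (by omega))
    apply Nat.eq_of_mul_eq_mul_left h6
    rw [h3]; ring
  have hr : σ.range = commutator (OGrp (qMinus 1 F a b)) := by
    apply range_eq_commutator σ hle
    by_cases h2 : (2 : F) = 0
    · left
      rw [hidx]
      have hev : ¬ Odd (Fintype.card F) := fun ho => two_ne_zero_of_odd ho h2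
      have h7 : Nat.gcd 2 (Fintype.card F - 1) = 1 := by
        have : Odd (Fintype.card F - 1) := by
          rw [Nat.not_odd_iff_even] at hev
          obtain ⟨k, hk⟩ := hev
          exact ⟨k - 1, by omega⟩
        exact (Nat.coprime_two_left).2 this
      rw [h7]
    · right
      constructor
      · rw [hidx]
        have h7 : Nat.gcd 2 (Fintype.card F - 1) = 2 := by
          apply Nat.gcd_eq_left
          rcases odd_of_two_ne_zero h2 with ⟨k, hk⟩
          rw [hk]; exact ⟨k, by omega⟩
        rw [h7]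
      · obtain ⟨_, _, _, _, _, _, _, _, _, h, _⟩ := omega_odd h2 (nondeg_qMinus 1 a b hab) (by simp)
        exact h
  have hs := pomegaIso (qMinus 1 F a b)
  rw [coe_qMinus] at hs
  obtain ⟨e⟩ := iso_of_range σ hr (by
    intro g hg
    apply sl2_center_of_mod
    intro x
    refine ⟨g * x * g⁻¹ * x⁻¹, ?_, by group⟩
    apply hker
    rw [map_mul, map_mul, map_mul, map_inv, map_inv, hg x]
    group)
  exact ⟨hs.trans e⟩

end Cfsg.Agent.S0300
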