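import Cfsg.Statements.S0438
import Mathlib

set_option autoImplicit false
open Cfsg

namespace Cfsg.Agent.S0438

/-- Let E be a set of 3-transpositions closed under conjugation, and x an involutory automorphism of the group mapping E to itself. If some a in E fails to commute with its image x a, then x fixes an element of E. -/
theorem result {G : Type*} [Group G] {E : Set G} (hE : Cfsg.IsThreeTranspositionSet E) (hconj : ∀ g : G, ∀ d ∈ E, g * d * g⁻¹ ∈ E) (x : G ≃* G) (hx : ∀ g : G, x (x g) = g) (hxE : ∀ d ∈ E, x d ∈ E) {a : G} (ha : a ∈ E) (h : ¬ Commute a (x a)) : ∃ d ∈ E, x d = d := by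
  have inv : ∀ d ∈ E, d * d = 1 := fun d hd => by
    have := pow_orderOf_eq_one d
    rwa [hE.1 d hd, pow_two] at this
  have hxa := hxE a ha
  have h1 := inv a ha
  have h2 := inv (x a) hxa
  have b : a * x a * a = x a * a * x a := by
    rcases hE.2 a ha (x a) hxa with h' | h'
    · exfalso; apply h
      rw [pow_two] at h'
      have : a * x a = (a * x a)⁻¹ := eq_inv_of_mul_eq_one_left h'
      rw [mul_inv_rev, ← eq_inv_of_mul_eq_one_left h1, ← eq_inv_of_mul_eq_one_left h2] at this
      exact this
    · rw [pow_succ, pow_two] at h'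
      have h3 : (a * x a * a) * (x a * a * x a) = 1 := by rw [← h']; group
      have h4 : (x a * a * x a) * (x a * a * x a) = 1 := by
        calc (x a * a * x a) * (x a * a * x a) = x a * a * (x a * x a) * a * x a := by group
          _ = 1 := by rw [h2, mul_one, mul_assoc (x a), h1, mul_one, h2]
      exact mul_right_cancel (h3.trans h4.symm)
  refine ⟨a * x a * a⁻¹, hconj a _ hxa, ?_⟩
  have ha' : a⁻¹ = a := (eq_inv_of_mul_eq_one_left h1).symm
  rw [ha', map_mul, map_mul, hx, ← b]

end Cfsg.Agent.S0438
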