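import Cfsg.Statements.S0514
import Mathlib
import Cfsg.Agent.LibTwoAct
import Cfsg.Agent.LibTransNil
-- import your own Cfsg.Agent.* helpers here

set_option autoImplicit false
open Cfsg

namespace Cfsg.Agent.S0514

open CfsgLib.TIConj CfsgLib.TwoAct

universe u

theorem ncard_four {C : Type*} (a b c d : C) : Set.ncard ({a, b, c, d} : Set C) ≤ 4 := by
  have h1 := Set.ncard_insert_le a {b, c, d}
  have h2 := Set.ncard_insert_le b {c, d}
  have h3 := Set.ncard_insert_le c {d}
  rw [Set.ncard_singleton] at h3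
  omega

theorem lemB {C : Type u} [Group C] [Finite C] {n : ℕ} (hn : n ≠ 0) (Q : Subgroup C) (hQ : IsPGroup 2 Q) (ψ : Q →* DihedralGroup n)
    (hψ : Function.Injective ψ) (t : C) (htQ : t ∈ Q) (ht : orderOf t = 2) (g : C) (hgt : g * t = t * g)
    (hg : g ∈ Subgroup.normalizer (Q : Set C)) (ho : (orderOf g).Coprime 2) : g ∈ Subgroup.centralizer (Q : Set C) := by
  haveI : NeZero n := ⟨hn⟩
  -- rotations
  let R : Subgroup C := ((Subgroup.zpowers (DihedralGroup.r 1 : DihedralGroup n)).comap ψ).map Q.subtype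
  have hrz : ∀ i : ZMod n, DihedralGroup.r i ∈ Subgroup.zpowers (DihedralGroup.r 1 : DihedralGroup n) := by
    intro i
    refine ⟨(i.val : ℤ), ?_⟩
    simp [DihedralGroup.r_one_zpow]
  have hRmem : ∀ x : Q, (x : C) ∈ R ↔ ∃ i, ψ x = DihedralGroup.r i := by
    intro x
    constructor
    · rintro ⟨y, ⟨k, hk⟩, hyx⟩
      have : y = x := Subtype.ext hyx
      subst this
      refine ⟨(k : ZMod n), ?_⟩
      rw [← hk]
      exact DihedralGroup.r_one_zpow k
    · rintro ⟨i, hi⟩
      refine ⟨x, ?_, rfl⟩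
      rw [SetLike.mem_coe, Subgroup.mem_comap, hi]
      exact hrz i
  have hRQ : R ≤ Q := Subgroup.map_subtype_le _
  have hnot : ∀ x : Q, (x : C) ∉ R → ∃ i, ψ x = DihedralGroup.sr i := by
    intro x hx
    rcases h : ψ x with i | i
    · exact absurd ((hRmem x).mpr ⟨i, h⟩) hx
    · exact ⟨i, rfl⟩
  have hcyc : IsCyclic R := by
    have h1 : IsCyclic ((Subgroup.zpowers (DihedralGroup.r 1 : DihedralGroup n)).comap ψ) := by
      refine isCyclic_of_injective (f := ((ψ.comp (Subgroup.subtype _)).codRestrict (Subgroup.zpowers (DihedralGroup.r 1 : DihedralGroup n)) (fun x => x.2))) ?_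
      intro a b hab
      apply Subtype.ext
      apply hψ
      exact congrArg Subtype.val hab
    exact isCyclic_of_surjective _ (Subgroup.equivMapOfInjective ((Subgroup.zpowers (DihedralGroup.r 1 : DihedralGroup n)).comap ψ) Q.subtype Q.subtype_injective).surjective
  have hi : ∀ x ∈ Q, ∀ y ∈ Q, x ∉ R → y ∉ R → x * y⁻¹ ∈ R := by
    intro x hx y hy hxR hyR
    obtain ⟨i, hi⟩ := hnot ⟨x, hx⟩ hxR
    obtain ⟨j, hj⟩ := hnot ⟨y, hy⟩ hyR
    refine (hRmem (⟨x, hx⟩ * (⟨y, hy⟩)⁻¹)).mpr ⟨j - i, ?_⟩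
    rw [map_mul, map_inv, hi, hj, DihedralGroup.inv_sr, DihedralGroup.sr_mul_sr]
  by_cases hgR : g ∈ Subgroup.normalizer (R : Set C)
  · exact odd_cent_of_index_two hQ hRQ hi hg hgR ho
  · -- generator
    obtain ⟨⟨r0, hr0⟩, hgen⟩ := hcyc.exists_generator
    have hR0 : ∀ x ∈ R, ∃ k : ℤ, x = r0 ^ k := by
      intro x hx
      obtain ⟨k, hk⟩ := hgen ⟨x, hx⟩
      exact ⟨k, (congrArg Subtype.val hk).symm⟩
    have hgr0 : g * r0 * g⁻¹ ∉ R := by
      intro h
      apply hgR
      rw [← conj_eq_iff]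
      have hle : R.map (MulAut.conj g).toMonoidHom ≤ R := by
        rintro _ ⟨x, hx, rfl⟩
        obtain ⟨k, rfl⟩ := hR0 x hx
        have h1 : (MulAut.conj g) (r0 ^ k) = (g * r0 * g⁻¹) ^ k := by
          rw [map_zpow]; rfl
        change (MulAut.conj g) (r0 ^ k) ∈ R
        rw [h1]; exact zpow_mem h k
      exact Subgroup.eq_of_le_of_card_ge hle (by rw [card_conj])
    have hyQ : g * r0 * g⁻¹ ∈ Q := conj_mem_of_normalizer hg (hRQ hr0)
    obtain ⟨y, hy⟩ : ∃ y, y = g * r0 * g⁻¹ := ⟨_, rfl⟩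
    rw [← hy] at hgr0 hyQ
    have hyy : y * y = 1 := by
      obtain ⟨i, hi'⟩ := hnot ⟨y, hyQ⟩ hgr0
      have h1 : (⟨y, hyQ⟩ : Q) * ⟨y, hyQ⟩ = 1 := by
        apply hψ
        rw [map_mul, hi', map_one, DihedralGroup.sr_mul_sr, sub_self]; rfl
      exact congrArg Subtype.val h1
    have hr00 : r0 * r0 = 1 := by
      have h1 : g * (r0 * r0) * g⁻¹ = 1 := by rw [← hyy, hy]; group
      have h2 := congrArg (fun z => g⁻¹ * z * g) h1
      simpa [mul_assoc] using h2
    have hR1 : ∀ x ∈ R, x = 1 ∨ x = r0 := by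
      intro x hx
      obtain ⟨k, rfl⟩ := hR0 x hx
      rcases Int.even_or_odd' k with ⟨m, rfl | rfl⟩
      · left; simp only [zpow_mul, zpow_two, hr00, one_zpow]
      · right; simp only [zpow_add, zpow_mul, zpow_two, hr00, one_zpow, zpow_one, one_mul]
    have hQsub : (Q : Set C) ⊆ {1, r0, y, r0 * y} := by
      intro x hx
      simp only [Set.mem_insert_iff, Set.mem_singleton_iff]
      by_cases hxR : x ∈ R
      · rcases hR1 x hxR with h | h
        · left; exact h
        · right; left; exact h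
      · have h1 := hi x hx y hyQ hxR hgr0
        rcases hR1 _ h1 with h | h
        · right; right; left; exact mul_inv_eq_one.mp h
        · right; right; right; exact mul_inv_eq_iff_eq_mul.mp h
    have hQ4 : Nat.card Q ≤ 4 := by
      have h1 : Nat.card Q = Set.ncard (Q : Set C) := rfl
      rw [h1]
      exact (Set.ncard_le_ncard hQsub (Set.toFinite _)).trans (ncard_four _ _ _ _)
    have htz : Subgroup.zpowers t ≤ Q := Subgroup.zpowers_le.mpr htQ
    have hct : Nat.card (Subgroup.zpowers t) = 2 := by rw [Nat.card_zpowers, ht]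
    have hrel := Subgroup.card_mul_index ((Subgroup.zpowers t).subgroupOf Q)
    rw [Nat.card_congr (Subgroup.subgroupOfEquivOfLe htz).toEquiv, hct] at hrel
    have hidx0 : ((Subgroup.zpowers t).subgroupOf Q).index ≠ 0 := Subgroup.index_ne_zero_of_finite
    have hgn : g ∈ Subgroup.normalizer ((Subgroup.zpowers t : Subgroup C) : Set C) := by
      rw [← conj_eq_iff]
      have hle : (Subgroup.zpowers t).map (MulAut.conj g).toMonoidHom ≤ Subgroup.zpowers t := by
        rintro _ ⟨_, ⟨k, rfl⟩, rfl⟩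
        refine ⟨k, ?_⟩
        change t ^ k = (MulAut.conj g) (t ^ k)
        rw [map_zpow, MulAut.conj_apply, hgt, mul_inv_cancel_right]
      exact Subgroup.eq_of_le_of_card_ge hle (by rw [card_conj])
    refine odd_cent_of_index_two hQ htz ?_ hg hgn ho
    intro x hx y hy hxR hyR
    by_cases h1 : ((Subgroup.zpowers t).subgroupOf Q).index = 1
    · exfalso
      apply hxR
      have h2 : (⟨x, hx⟩ : Q) ∈ (Subgroup.zpowers t).subgroupOf Q := by rw [Subgroup.index_eq_one.mp h1]; trivial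
      exact h2
    · have h2 : ((Subgroup.zpowers t).subgroupOf Q).index = 2 := by omega
      have h3 := Subgroup.mul_mem_iff_of_index_two h2 (a := ⟨x, hx⟩) (b := (⟨y, hy⟩)⁻¹)
      rw [inv_mem_iff, Subgroup.mem_subgroupOf, Subgroup.mem_subgroupOf, Subgroup.mem_subgroupOf] at h3
      exact h3.mpr ⟨fun h => absurd h hxR, fun h => absurd h hyR⟩

theorem main {X : Type u} [Group X] [Finite X]
    (S : Sylow 2 X) (n : ℕ) (hn : n ≠ 0) (hS : Nonempty ((S : Subgroup X) ≃* DihedralGroup n)) (t : X)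
    (ht : orderOf t = 2) : Cfsg.HasNormalPComplement 2 (Subgroup.centralizer ({t} : Set X)) := by
  haveI : Fact (Nat.Prime 2) := ⟨Nat.prime_two⟩
  by_contra hcon
  obtain ⟨Q, g, hQ, hg, ho, hgc⟩ := CfsgLib.TransNil.exists_of_not_hasNPC hcon
  have htC : t ∈ Subgroup.centralizer ({t} : Set X) := by
    rw [Subgroup.mem_centralizer_iff]; rintro x rfl; rfl
  obtain ⟨t', ht'⟩ : ∃ t' : Subgroup.centralizer ({t} : Set X), t' = ⟨t, htC⟩ := ⟨_, rfl⟩
  have ht'2 : orderOf t' = 2 := by rw [ht', Subgroup.orderOf_mk, ht]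
  have hcen : ∀ x : Subgroup.centralizer ({t} : Set X), x * t' = t' * x := by
    intro x
    apply Subtype.ext
    rw [ht']
    exact (Subgroup.mem_centralizer_iff.mp x.2 t rfl).symm
  have hZn : (Subgroup.zpowers t').Normal := by
    constructor
    rintro _ ⟨k, rfl⟩ x
    have h1 : Commute x t' := hcen x
    refine ⟨k, ?_⟩
    change t' ^ k = x * t' ^ k * x⁻¹
    rw [(h1.zpow_right k).eq, mul_inv_cancel_right]
  have hZ2 : IsPGroup 2 (Subgroup.zpowers t') := by
    apply IsPGroup.of_card (n := 1)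
    rw [Nat.card_zpowers, ht'2, pow_one]
  have hQ1 : IsPGroup 2 ↥(Q ⊔ Subgroup.zpowers t') := hQ.to_sup_of_normal_right hZ2
  obtain ⟨Q1, hQ1d⟩ : ∃ Q1, Q1 = Q ⊔ Subgroup.zpowers t' := ⟨_, rfl⟩
  rw [← hQ1d] at hQ1
  have hQQ1 : Q ≤ Q1 := by rw [hQ1d]; exact le_sup_left
  have htQ1 : t' ∈ Q1 := by rw [hQ1d]; exact (le_sup_right : Subgroup.zpowers t' ≤ _) (Subgroup.mem_zpowers t')
  have hg1 : g ∈ Subgroup.normalizer (Q1 : Set (Subgroup.centralizer ({t} : Set X))) := by
    rw [← conj_eq_iff] at hg ⊢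
    rw [hQ1d, Subgroup.map_sup, hg, conj_eq_iff.mpr]
    rw [Subgroup.normalizer_eq_top]; trivial
  -- embed
  have hQX : IsPGroup 2 (Q1.map (Subgroup.centralizer ({t} : Set X)).subtype) := hQ1.map _
  obtain ⟨S', hS'⟩ := hQX.exists_le_sylow
  obtain ⟨e⟩ := hS
  let ψ : Q1 →* DihedralGroup n := e.toMonoidHom.comp ((Sylow.equiv S' S).toMonoidHom.comp ((Subgroup.inclusion hS').comp (Q1.equivMapOfInjective _ (Subgroup.centralizer ({t} : Set X)).subtype_injective).toMonoidHom))
  have hψ : Function.Injective ψ := e.injective.comp ((Sylow.equiv S' S).injective.comp ((Subgroup.inclusion_injective hS').comp (Q1.equivMapOfInjective _ (Subgroup.centralizer ({t} : Set X)).subtype_injective).injective))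
  have key := lemB hn Q1 hQ1 ψ hψ t' htQ1 ht'2 g (hcen g) hg1 ho
  apply hgc
  rw [Subgroup.mem_centralizer_iff] at key ⊢
  exact fun x hx => key x (hQQ1 hx)

/-- In a finite group whose Sylow 2-subgroups are dihedral of order at least 4, the centralizer of any involution has a
normal subgroup of odd order whose index in the centralizer is a power of 2. -/
theorem result {X : Type*} [Group X] [Finite X]
    (S : Sylow 2 X) (n : ℕ) (hn : 2 ≤ n) (hS : Nonempty ((S : Subgroup X) ≃* DihedralGroup n)) (t : X)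
    (ht : orderOf t = 2) :
    ∃ N : Subgroup (Subgroup.centralizer ({t} : Set X)), N.Normal ∧ Odd (Nat.card N) ∧ ∃ k : ℕ, N.index = 2 ^ k := by
  haveI : Fact (Nat.Prime 2) := ⟨Nat.prime_two⟩
  have h1 := main S n (by omega) hS t ht
  rw [CfsgLib.TransPC.hasNPC_iff] at h1
  obtain ⟨N, hN1, hN2, k, hk⟩ := h1
  exact ⟨N, hN1, Nat.not_even_iff_odd.mp (fun h => hN2 (even_iff_two_dvd.mp h)), k, hk⟩

end Cfsg.Agent.S0514
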