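import Cfsg.Statements.S0508
import Mathlib
import Cfsg.Agent.EqBase
import Cfsg.Agent.LibBW11p
import Cfsg.Agent.S0514

set_option autoImplicit false
set_option linter.all false
open Cfsg

namespace Cfsg.Agent.S0508

open CfsgLib.BW11

theorem card_sub {G : Type*} [Group G] [Finite G] {S : Subgroup G} {n : ℕ} (hn : 2 ≤ n) (e : S ≃* DihedralGroup n) {A : Subgroup G}
    (hAS : A ≤ S) (hAi : A.relIndex S = 2) : Nat.card A = n := by
  haveI : NeZero n := ⟨by omega⟩
  have h1 := (A.subgroupOf S).card_mul_index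
  rw [Nat.card_congr (Subgroup.subgroupOfEquivOfLe hAS).toEquiv, Nat.card_congr e.toEquiv, DihedralGroup.nat_card] at h1
  have h2 : (A.subgroupOf S).index = 2 := hAi
  rw [h2, mul_comm] at h1
  exact Nat.eq_of_mul_eq_mul_left two_pos h1

theorem r_mem {n : ℕ} (i : ZMod n) [NeZero n] : DihedralGroup.r i ∈ Subgroup.zpowers (DihedralGroup.r 1 : DihedralGroup n) := by
  refine ⟨(i.val : ℤ), ?_⟩
  simp [DihedralGroup.r_one_zpow]

theorem dih_out {G : Type*} [Group G] [Finite G] {S : Subgroup G} {n : ℕ} (hn : 2 ≤ n) (e : S ≃* DihedralGroup n) {A : Subgroup G}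
    (hAS : A ≤ S) (hA : IsCyclic A) (hAi : A.relIndex S = 2) :
    ∀ s ∈ S, s ∉ A → s * s = 1 ∧ ∀ a ∈ A, s * a * s⁻¹ = a⁻¹ := by
  haveI : NeZero n := ⟨by omega⟩
  have hAc := card_sub hn e hAS hAi
  rcases Nat.lt_or_ge 2 n with h3 | h3
  · obtain ⟨⟨a, ha⟩, hgen⟩ := hA.exists_generator
    have hao : orderOf a = n := by
      have h1 := orderOf_eq_card_of_forall_mem_zpowers hgen
      rw [Subgroup.orderOf_mk, hAc] at h1; exact h1
    obtain ⟨i, hi⟩ : ∃ i, e ⟨a, hAS ha⟩ = DihedralGroup.r i := by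
      rcases h : e ⟨a, hAS ha⟩ with i | i
      · exact ⟨i, rfl⟩
      · exfalso
        have h1 : orderOf (e ⟨a, hAS ha⟩) = n := by rw [MulEquiv.orderOf_eq, Subgroup.orderOf_mk, hao]
        rw [h, DihedralGroup.orderOf_sr] at h1
        omega
    have hle : (A.subgroupOf S).map e.toMonoidHom ≤ Subgroup.zpowers (DihedralGroup.r 1 : DihedralGroup n) := by
      rintro _ ⟨x, hx, rfl⟩
      have hxA : (x : G) ∈ A := hx
      obtain ⟨j, hj⟩ := Subgroup.mem_zpowers_iff.1 (hgen ⟨x, hxA⟩)
      have h1 : x = (⟨a, hAS ha⟩ : S) ^ j := by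
        apply Subtype.ext
        have := congrArg Subtype.val hj
        rw [Subgroup.coe_zpow] at this ⊢
        exact this.symm
      show e x ∈ _
      rw [h1, map_zpow, hi]
      exact Subgroup.zpow_mem _ (r_mem i) j
    have heq : (A.subgroupOf S).map e.toMonoidHom = Subgroup.zpowers (DihedralGroup.r 1 : DihedralGroup n) := by
      apply Subgroup.eq_of_le_of_card_ge hle
      rw [Nat.card_zpowers, DihedralGroup.orderOf_r_one, Nat.card_congr ((A.subgroupOf S).equivMapOfInjective e.toMonoidHom e.injective).symm.toEquiv,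
        Nat.card_congr (Subgroup.subgroupOfEquivOfLe hAS).toEquiv, hAc]
    have hrot : ∀ x : S, (x : G) ∈ A ↔ ∃ i, e x = DihedralGroup.r i := by
      intro x
      constructor
      · intro hx
        have h1 : e x ∈ (A.subgroupOf S).map e.toMonoidHom := ⟨x, hx, rfl⟩
        rw [heq] at h1
        obtain ⟨k, hk⟩ := h1
        refine ⟨(k : ZMod n), ?_⟩
        rw [← hk]
        exact DihedralGroup.r_one_zpow k
      · rintro ⟨i, hi⟩
        have h1 : e x ∈ (A.subgroupOf S).map e.toMonoidHom := by rw [heq, hi]; exact r_mem i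
        obtain ⟨y, hy, hyx⟩ := h1
        have : y = x := e.injective hyx
        rw [← this]; exact hy
    intro s hs hsA
    obtain ⟨j, hj⟩ : ∃ j, e ⟨s, hs⟩ = DihedralGroup.sr j := by
      rcases h : e ⟨s, hs⟩ with i | i
      · exact absurd ((hrot ⟨s, hs⟩).2 ⟨i, h⟩) hsA
      · exact ⟨i, rfl⟩
    constructor
    · have h1 : (⟨s, hs⟩ : S) * ⟨s, hs⟩ = 1 := by
        apply e.injective
        rw [map_mul, hj, DihedralGroup.sr_mul_sr, sub_self, map_one]; rfl
      exact congrArg Subtype.val h1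
    · intro b hb
      obtain ⟨k, hk⟩ := (hrot ⟨b, hAS hb⟩).1 hb
      have h1 : (⟨s, hs⟩ : S) * ⟨b, hAS hb⟩ * ⟨s, hs⟩⁻¹ = (⟨b, hAS hb⟩ : S)⁻¹ := by
        apply e.injective
        rw [map_mul, map_mul, map_inv, map_inv, hj, hk, DihedralGroup.inv_sr, DihedralGroup.sr_mul_r, DihedralGroup.sr_mul_sr, DihedralGroup.inv_r]
        congr 1
        ring
      exact congrArg Subtype.val h1
  · obtain rfl : n = 2 := by omega
    have hsq : ∀ x ∈ S, x * x = 1 := by
      intro x hx
      have h1 : (⟨x, hx⟩ : S) * ⟨x, hx⟩ = 1 := by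
        apply e.injective
        rw [map_mul, map_one]
        generalize e ⟨x, hx⟩ = y
        revert y
        decide
      exact congrArg Subtype.val h1
    intro s hs _
    refine ⟨hsq s hs, fun a ha => ?_⟩
    have h1 := hsq (s * a) (S.mul_mem hs (hAS ha))
    have h2 : s⁻¹ = s := inv_eq_of_mul_eq_one_left (hsq s hs)
    rw [h2]
    rw [eq_inv_iff_mul_eq_one, ← h1]; group

theorem dih_rot {G : Type*} [Group G] [Finite G] {S : Subgroup G} {n : ℕ} (hn : 2 < n) (e : S ≃* DihedralGroup n) {t : G} (htS : t ∈ S)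
    (htZ : ∀ s ∈ S, s * t = t * s) :
    ∃ A : Subgroup G, A ≤ S ∧ IsCyclic A ∧ A.relIndex S = 2 ∧ t ∈ A := by
  haveI : NeZero n := ⟨by omega⟩
  obtain ⟨R, hR⟩ : ∃ R : Subgroup G, R = ((Subgroup.zpowers (DihedralGroup.r 1 : DihedralGroup n)).comap e.toMonoidHom).map S.subtype := ⟨_, rfl⟩
  have hRS : R ≤ S := by rw [hR]; exact Subgroup.map_subtype_le _
  have hRS' : R.subgroupOf S = (Subgroup.zpowers (DihedralGroup.r 1 : DihedralGroup n)).comap e.toMonoidHom := by
    rw [hR, Subgroup.subgroupOf, Subgroup.comap_map_eq_self_of_injective S.subtype_injective]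
  refine ⟨R, hRS, ?_, ?_, ?_⟩
  · have h1 : IsCyclic ((Subgroup.zpowers (DihedralGroup.r 1 : DihedralGroup n)).comap e.toMonoidHom) :=
      isCyclic_of_injective (f := ((e.toMonoidHom.comp (Subgroup.subtype _)).codRestrict (Subgroup.zpowers (DihedralGroup.r 1 : DihedralGroup n)) (fun x => x.2)))
        (fun x y hxy => Subtype.ext (e.injective (congrArg Subtype.val hxy)))
    rw [← hRS'] at h1
    exact isCyclic_of_surjective (Subgroup.subgroupOfEquivOfLe hRS) (Subgroup.subgroupOfEquivOfLe hRS).surjective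
  · show (R.subgroupOf S).index = 2
    rw [hRS', Subgroup.index_comap_of_surjective _ e.surjective]
    have h1 := (Subgroup.zpowers (DihedralGroup.r 1 : DihedralGroup n)).card_mul_index
    rw [Nat.card_zpowers, DihedralGroup.orderOf_r_one, DihedralGroup.nat_card, mul_comm 2] at h1
    exact Nat.eq_of_mul_eq_mul_left (by omega) h1
  · rw [hR]
    refine ⟨⟨t, htS⟩, ?_, rfl⟩
    show e ⟨t, htS⟩ ∈ Subgroup.zpowers (DihedralGroup.r 1 : DihedralGroup n)
    rcases h : e ⟨t, htS⟩ with i | i
    · exact r_mem i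
    · exfalso
      have h1 := htZ (e.symm (DihedralGroup.r 1)) (e.symm (DihedralGroup.r 1)).2
      have h2 : (e.symm (DihedralGroup.r 1)) * (⟨t, htS⟩ : S) = ⟨t, htS⟩ * (e.symm (DihedralGroup.r 1)) := Subtype.ext h1
      have h3 := congrArg e h2
      rw [map_mul, map_mul, h, e.apply_symm_apply, DihedralGroup.r_mul_sr, DihedralGroup.sr_mul_r] at h3
      have h4 : i - 1 = i + 1 := by injection h3
      have h5 : (2 : ZMod n) = 0 := by
        have : (2 : ZMod n) = (i + 1) - (i - 1) := by ring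
        rw [this, ← h4, sub_self]
      have h6 : ((2 : ℕ) : ZMod n) = 0 := by exact_mod_cast h5
      rw [ZMod.natCast_eq_zero_iff] at h6
      have := Nat.le_of_dvd two_pos h6
      omega

/-- Let G be a finite simple group with a dihedral Sylow 2-subgroup S (of order at least 4), t an involution in the
centre of S, C the centralizer of t and O the core of C (its largest normal subgroup of odd order). Suppose that: if O
is nontrivial then the centralizer of O in S is cyclic of index 2 in S; every element of S not centralizing O inverts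
every element of O; and the normalizer of every nontrivial subgroup of O lies in C. Then G is isomorphic to a projective
special linear group of dimension 2 over a field of odd order. -/
theorem result {G : Type*} [Group G] [Finite G] [IsSimpleGroup G] (S : Sylow 2 G) (n : ℕ)
    (hn : 2 ≤ n) (hS : Nonempty ((S : Subgroup G) ≃* DihedralGroup n)) (t : G) (ht : orderOf t = 2)
    (htS : t ∈ (S : Subgroup G))
    (htZ : ∀ s ∈ (S : Subgroup G), s * t = t * s) (O : Subgroup G)
    (hO : O = (Cfsg.oddCore (Subgroup.centralizer ({t} : Set G))).map (Subgroup.centralizer ({t} : Set G)).subtype)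
    (ha : O ≠ ⊥ → IsCyclic ((S : Subgroup G) ⊓ Subgroup.centralizer (O : Set G) : Subgroup G) ∧
      ((S : Subgroup G) ⊓ Subgroup.centralizer (O : Set G)).relIndex (S : Subgroup G) = 2)
    (hb : ∀ s ∈ (S : Subgroup G), s ∉ Subgroup.centralizer (O : Set G) → ∀ y ∈ O, s * y * s⁻¹ = y⁻¹)
    (hc : ∀ Y : Subgroup G, Y ≤ O → Y ≠ ⊥ → Subgroup.normalizer (Y : Set G) ≤ Subgroup.centralizer ({t} : Set G)) :
    ∃ (F : Type) (_ : Field F) (_ : Fintype F), Odd (Fintype.card F) ∧ Nonempty (G ≃* Matrix.ProjectiveSpecialLinearGroup (Fin 2) F) := by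
  classical
  haveI : Fact (Nat.Prime 2) := ⟨Nat.prime_two⟩
  obtain ⟨e⟩ := hS
  have hSc : Nat.card (S : Subgroup G) = 2 * n := by
    haveI : NeZero n := ⟨by omega⟩
    rw [Nat.card_congr e.toEquiv, DihedralGroup.nat_card]
  have ht2 : t * t = 1 := by rw [← pow_two, ← ht]; exact pow_orderOf_eq_one t
  have hSC : (S : Subgroup G) ≤ Subgroup.centralizer ({t} : Set G) := by
    intro x hx
    rw [Subgroup.mem_centralizer_singleton_iff]; exact htZ x hx
  obtain ⟨O', hO'⟩ : ∃ O' : Subgroup (Subgroup.centralizer ({t} : Set G)), O' = Cfsg.oddCore (Subgroup.centralizer ({t} : Set G)) := ⟨_, rfl⟩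
  rw [← hO'] at hO
  have hO'n : O'.Normal := by
    rw [hO']
    haveI := CfsgLib.Cores.pPrimeCore_characteristic (G := Subgroup.centralizer ({t} : Set G)) 2
    exact Subgroup.normal_of_characteristic _
  have hO'odd : Odd (Nat.card O') := by rw [hO']; exact CfsgLib.ZStar.oddCore_odd
  have hOC : O ≤ Subgroup.centralizer ({t} : Set G) := by rw [hO]; exact Subgroup.map_subtype_le _
  have hOc : Nat.card O = Nat.card O' := by
    rw [hO]; exact Nat.card_congr (O'.equivMapOfInjective _ (Subgroup.subtype_injective _)).symm.toEquiv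
  have hOodd : ¬ 2 ∣ Nat.card O := by
    rw [hOc]
    exact fun h => (Nat.not_even_iff_odd.2 hO'odd) (even_iff_two_dvd.2 h)
  -- the cyclic subgroup
  obtain ⟨A, hAS, hA, hAi, htA, hAO, hOinv⟩ : ∃ A : Subgroup G, A ≤ (S : Subgroup G) ∧ IsCyclic A ∧ A.relIndex (S : Subgroup G) = 2 ∧ t ∈ A ∧
      (∀ a ∈ A, ∀ y ∈ O, a * y = y * a) ∧ (∀ s ∈ (S : Subgroup G), s ∉ A → ∀ y ∈ O, s * y * s⁻¹ = y⁻¹) := by
    by_cases hO1 : O = ⊥
    · have htriv : ∀ y ∈ O, y = 1 := fun y hy => by rw [hO1] at hy; exact Subgroup.mem_bot.1 hy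
      rcases Nat.lt_or_ge 2 n with h3 | h3
      · obtain ⟨A, h1, h2, h4, h5⟩ := dih_rot h3 e htS htZ
        exact ⟨A, h1, h2, h4, h5, fun a _ y hy => by rw [htriv y hy, mul_one, one_mul], fun s _ _ y hy => by rw [htriv y hy]; group⟩
      · refine ⟨Subgroup.zpowers t, by rw [Subgroup.zpowers_le]; exact htS, inferInstance, ?_, Subgroup.mem_zpowers t,
          fun a _ y hy => by rw [htriv y hy, mul_one, one_mul], fun s _ _ y hy => by rw [htriv y hy]; group⟩
        have h1 := ((Subgroup.zpowers t).subgroupOf (S : Subgroup G)).card_mul_index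
        rw [Nat.card_congr (Subgroup.subgroupOfEquivOfLe (by rw [Subgroup.zpowers_le]; exact htS)).toEquiv, Nat.card_zpowers, ht, hSc] at h1
        have h2 : ((Subgroup.zpowers t).subgroupOf (S : Subgroup G)).index = n := Nat.eq_of_mul_eq_mul_left two_pos h1
        show ((Subgroup.zpowers t).subgroupOf (S : Subgroup G)).index = 2
        rw [h2]; omega
    · obtain ⟨h1, h2⟩ := ha hO1
      refine ⟨(S : Subgroup G) ⊓ Subgroup.centralizer (O : Set G), inf_le_left, h1, h2, ⟨htS, ?_⟩, ?_, ?_⟩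
      · show t ∈ Subgroup.centralizer (O : Set G)
        rw [Subgroup.mem_centralizer_iff]
        intro y hy
        exact Subgroup.mem_centralizer_singleton_iff.1 (hOC hy)
      · intro a ha y hy
        exact (Subgroup.mem_centralizer_iff.1 (Subgroup.mem_inf.1 ha).2 y hy).symm
      · intro s hs hsA y hy
        exact hb s hs (fun h0 => hsA (Subgroup.mem_inf.2 ⟨hs, h0⟩)) y hy
  have hout := dih_out hn e hAS hA hAi
  -- the structure of the centraliser
  have hC : ∀ g, g * t = t * g ↔ ∃ y ∈ O, ∃ w ∈ (S : Subgroup G), y * w = g := by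
    intro g
    constructor
    · intro hg
      have hgC : g ∈ Subgroup.centralizer ({t} : Set G) := Subgroup.mem_centralizer_singleton_iff.2 hg
      obtain ⟨S', hS'⟩ : ∃ S' : Subgroup (Subgroup.centralizer ({t} : Set G)), S' = (S : Subgroup G).subgroupOf _ := ⟨_, rfl⟩
      have hS'c : Nat.card S' = 2 * n := by
        rw [hS', Nat.card_congr (Subgroup.subgroupOfEquivOfLe hSC).toEquiv, hSc]
      obtain ⟨N, hN1, hN2, k, hk⟩ := Cfsg.Agent.S0514.result S n hn ⟨e⟩ t ht
      have hNO : N ≤ O' := by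
        rw [hO']; haveI := hN1; exact CfsgLib.ZStar.mem_oddCore_of_normal hN2
      obtain ⟨j, hj⟩ : ∃ j, O'.index = 2 ^ j := by
        have h1 := Subgroup.index_dvd_of_le hNO
        rw [hk] at h1
        obtain ⟨j, -, hj⟩ := (Nat.dvd_prime_pow Nat.prime_two).1 h1
        exact ⟨j, hj⟩
      obtain ⟨b, hb⟩ : ∃ b, Nat.card (S : Subgroup G) = 2 ^ b := (IsPGroup.iff_card.1 S.2)
      have hcop : Nat.Coprime (Nat.card O') (Nat.card S') := by
        rw [hS'c, ← hSc, hb]
        exact Nat.Coprime.pow_right b (Nat.coprime_two_right.2 hO'odd)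
      have hmul : Nat.card O' * Nat.card S' = Nat.card (Subgroup.centralizer ({t} : Set G)) := by
        rw [← O'.card_mul_index, hj]
        congr 1
        rw [hS'c, ← hSc]
        apply Nat.dvd_antisymm
        · have h1 : Nat.card S' ∣ Nat.card (Subgroup.centralizer ({t} : Set G)) := Subgroup.card_subgroup_dvd_card S'
          rw [← O'.card_mul_index, hj] at h1
          rw [hSc, ← hS'c]
          exact hcop.symm.dvd_of_dvd_mul_left h1
        · have h1 : 2 ^ j ∣ Nat.card G := by
            rw [← hj]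
            exact (Dvd.intro_left _ O'.card_mul_index).trans (Subgroup.card_subgroup_dvd_card _)
          have h2 := S.card_eq_multiplicity
          rw [h2]
          exact (Nat.Prime.pow_dvd_iff_le_factorization Nat.prime_two Nat.card_pos.ne').1 h1 |> fun h3 => pow_dvd_pow 2 h3
      have hcomp := Subgroup.isComplement'_of_coprime hmul hcop
      have h1 : (⟨g, hgC⟩ : Subgroup.centralizer ({t} : Set G)) ∈ O' ⊔ S' := by rw [hcomp.sup_eq_top]; trivial
      rw [Subgroup.mem_sup_of_normal_left] at h1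
      obtain ⟨y, hy, w, hw, hyw⟩ := h1
      refine ⟨y, ?_, w, ?_, congrArg Subtype.val hyw⟩
      · rw [hO]; exact ⟨y, hy, rfl⟩
      · rw [hS'] at hw; exact hw
    · rintro ⟨y, hy, w, hw, rfl⟩
      exact Subgroup.mem_centralizer_singleton_iff.1 (mul_mem (hOC hy) (hSC hw))
  -- one class of involutions
  have hcj : ∀ x, x * x = 1 → x ≠ 1 → IsConj t x := by
    intro x hx hx1
    have hxo : orderOf x = 2 := orderOf_eq_prime (by rw [pow_two]; exact hx) hx1
    rcases CfsgLib.ThompTr.thompson_transfer S A hAS hAi x (by rw [pow_two]; exact hx) with ⟨M, hM, hMi, -⟩ | ⟨g, hg⟩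
    · exfalso
      rcases hM.eq_bot_or_eq_top with h1 | h1
      · rw [h1, Subgroup.index_bot] at hMi
        have h2 := Subgroup.card_le_card_group (S : Subgroup G)
        omega
      · rw [h1, Subgroup.index_top] at hMi
        omega
    · have h1 := CfsgLib.ThompTr.unique_involution (⟨g * x * g⁻¹, hg⟩ : A) ⟨t, htA⟩
        (by rw [Subgroup.orderOf_mk, CfsgLib.TransFus.orderOf_conj]; exact hxo)
        (by rw [Subgroup.orderOf_mk]; exact ht)
      have h2 : g * x * g⁻¹ = t := congrArg Subtype.val h1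
      exact (isConj_iff.2 ⟨g, h2⟩).symm
  obtain ⟨K, s, hBW⟩ := bw_of_local (S : Subgroup G) S.2 A O t hAS hA hAi ht htA hout hAO hOinv hOodd hC hc hcj
  obtain ⟨Q, D, hQD⟩ := hBW.conc
  obtain ⟨F, i1, i2, hF, hiso⟩ := hQD.psl
  refine ⟨F, i1, i2, ?_, hiso⟩
  rw [hF, ← hQD.2.2.2.1]
  exact ⟨Nat.card D, rfl⟩

end Cfsg.Agent.S0508
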