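import Cfsg.Statements.S0727
import Cfsg.Agent.EqBase
import Cfsg.Agent.LibS3T8

set_option autoImplicit false
open Cfsg

namespace Cfsg.Agent.S0727


/-- A sharply triply transitive permutation group of degree `2^f + 1` is isomorphic to the projective general linear group of degree 2 over the field with `2^f` elements. -/
theorem result {α : Type*} [Fintype α] [DecidableEq α] {f : ℕ} (hf : 1 ≤ f) (hα : Fintype.card α = 2 ^ f + 1) (G : Subgroup (Equiv.Perm α)) (h3 : MulAction.IsMultiplyPretransitive G α 3) (hsharp : ∀ x : Fin 3 ↪ α, MulAction.stabilizer G x = ⊥) : ∃ (F : Type) (_ : Field F) (_ : Fintype F), Fintype.card F = 2 ^ f ∧ Nonempty (G ≃* Matrix.ProjGenLinGroup (Fin 2) F) := by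
  classical
  have emb : ∀ a b c : α, a ≠ b → a ≠ c → b ≠ c → ∃ e : Fin 3 ↪ α, e 0 = a ∧ e 1 = b ∧ e 2 = c := by
    intro a b c hab hac hbc
    refine ⟨⟨![a, b, c], ?_⟩, rfl, rfl, rfl⟩
    intro i j hij
    fin_cases i <;> fin_cases j <;> simp_all [eq_comm]
  refine CfsgLib.S3T8.main (G := G) (Ω := α) hf hα ?_ ?_
  · intro a b c a' b' c' hab hac hbc hab' hac' hbc'
    obtain ⟨e, e0, e1, e2⟩ := emb a b c hab hac hbc
    obtain ⟨e', e0', e1', e2'⟩ := emb a' b' c' hab' hac' hbc'
    obtain ⟨g, hg⟩ := h3.exists_smul_eq e e'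
    have h1 : ∀ i, g • e i = e' i := fun i => congrArg (fun k : Fin 3 ↪ α => k i) hg
    exact ⟨g, by rw [← e0, h1, e0'], by rw [← e1, h1, e1'], by rw [← e2, h1, e2']⟩
  · intro g a b c hab hac hbc ha hb hc
    obtain ⟨e, e0, e1, e2⟩ := emb a b c hab hac hbc
    have h1 : g ∈ MulAction.stabilizer G e := by
      rw [MulAction.mem_stabilizer_iff]
      ext i
      change g • e i = e i
      fin_cases i
      · change g • e 0 = e 0; rw [e0, ha]
      · change g • e 1 = e 1; rw [e1, hb]
      · change g • e 2 = e 2; rw [e2, hc]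
    rw [hsharp e] at h1
    exact Subgroup.mem_bot.1 h1
end Cfsg.Agent.S0727
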