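import Cfsg.Statements.S0810
import Mathlib
import Mathlib
import Cfsg.Agent.LibDkY29

set_option autoImplicit false
open Cfsg

namespace Cfsg.Agent.S0810

open CfsgLib.Dk29 MulAction

/-- PSL_2(q) is minimal simple iff q is 2^r (r prime), 3^r (r an odd prime), a prime greater than 5 congruent to 2 or 3 mod 5, or 5. -/
theorem result {F : Type*} [Field F] [Fintype F] {q : ℕ} (hF : Fintype.card F = q) : Cfsg.IsMinimalSimple (Matrix.ProjectiveSpecialLinearGroup (Fin 2) F) ↔ ((∃ r : ℕ, r.Prime ∧ q = 2 ^ r) ∨ (∃ r : ℕ, r.Prime ∧ r ≠ 2 ∧ q = 3 ^ r) ∨ (q.Prime ∧ 5 < q ∧ (q % 5 = 2 ∨ q % 5 = 3)) ∨ q = 5) := by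
  classical
  subst hF
  have hq1 : 1 < Fintype.card F := Fintype.one_lt_card
  have hcard := card_PSL (F := F)
  constructor
  · rintro ⟨hsimple, hnc, hsolv⟩
    have hns : ¬ Group.IsSolvable (Matrix.ProjectiveSpecialLinearGroup (Fin 2) F) := by
      rw [← IsSimpleGroup.comm_iff_isSolvable]
      intro h
      exact hnc (isMulCommutative_iff.mpr h)
    obtain ⟨p, hp⟩ := CharP.exists F
    haveI := hp
    obtain ⟨⟨n, hn0⟩, hpp, hn⟩ := FiniteField.card F p
    have hn : Fintype.card F = p ^ n := hn
    haveI : Fact p.Prime := ⟨hpp⟩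
    have hlt : ¬ Nat.card (Matrix.ProjectiveSpecialLinearGroup (Fin 2) F) < 60 :=
      fun h => hns (solv_of_lt Matrix.ProjectiveSpecialLinearGroup.toPGL Matrix.ProjectiveSpecialLinearGroup.toPGL_injective h)
    have hsub : ∀ a, a ≠ 0 → a ∣ n → a < n → p ^ a < 4 := by
      intro a ha0 ha han
      by_contra h4
      obtain ⟨L, hL, hL'⟩ := exists_subfield_sub p n a hn ha0 ha han (by omega)
      exact hL' (hsolv L hL)
    have hprime : p < 4 → 2 ≤ n → n.Prime := by
      intro hp4 hn2
      by_contra hnp
      obtain ⟨a, ha, ha1, han⟩ := Nat.exists_dvd_of_not_prime hn2 hnp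
      have ha0 : a ≠ 0 := by rintro rfl; rw [zero_dvd_iff] at ha; omega
      have h1 := hsub a ha0 ha (lt_of_le_of_ne (Nat.le_of_dvd (by omega) ha) han)
      have h2 : 2 ^ 2 ≤ p ^ a := (Nat.pow_le_pow_left hpp.two_le 2).trans (Nat.pow_le_pow_right hpp.pos (by omega))
      omega
    have hval : ∀ q, Fintype.card F = q → Nat.gcd 2 (q - 1) * Nat.card (Matrix.ProjectiveSpecialLinearGroup (Fin 2) F) = q * ((q - 1) * (q + 1)) := by
      rintro q rfl; exact hcard
    generalize Nat.card (Matrix.ProjectiveSpecialLinearGroup (Fin 2) F) = C at hcard hlt hval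
    by_cases hp2 : p = 2
    · left
      subst hp2
      refine ⟨n, hprime (by norm_num) ?_, hn⟩
      by_contra hn2
      have hn1 : n = 1 := by omega
      rw [hn1] at hn
      have := hval 2 hn
      norm_num at this
      omega
    by_cases hp3 : p = 3
    · right; left
      subst hp3
      refine ⟨n, hprime (by norm_num) ?_, ?_, hn⟩
      · by_contra hn2
        have hn1 : n = 1 := by omega
        rw [hn1] at hn
        have := hval 3 hn
        norm_num at this
        omega
      · rintro rfl
        obtain ⟨L, hL, hL'⟩ := exists_a5_proper (F := F) (by rw [hn]; decide) (by rw [hn]; norm_num) (by rw [hn]; norm_num)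
        exact hL' (hsolv L hL)
    have hp5 : 5 ≤ p := by
      have h2 := hpp.two_le
      have h4 : p ≠ 4 := by rintro rfl; exact absurd hpp (by decide)
      omega
    have hn1 : n = 1 := by
      by_contra hne
      have := hsub 1 one_ne_zero (one_dvd n) (by omega)
      rw [pow_one] at this
      omega
    rw [hn1, pow_one] at hn
    by_cases hp5' : p = 5
    · right; right; right
      rw [hn, hp5']
    · right; right; left
      rw [hn]
      have h5 : ¬ 5 ∣ (p - 1) * (p + 1) := by
        intro h5
        obtain ⟨L, hL, hL'⟩ := exists_a5_proper (F := F) (by rw [hn]; exact hpp.odd_of_ne_two hp2) (by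
          rw [hn]
          have h6 : p ≠ 6 := by rintro rfl; exact absurd hpp (by decide)
          omega) (by rw [hn]; exact h5)
        exact hL' (hsolv L hL)
      refine ⟨hpp, by omega, ?_⟩
      have h0 : p % 5 ≠ 0 := by
        intro h
        exact hp5' ((Nat.prime_dvd_prime_iff_eq Nat.prime_five hpp).mp (Nat.dvd_of_mod_eq_zero h)).symm
      have h1 : p % 5 ≠ 1 := by
        intro h
        exact h5 (Dvd.dvd.mul_right (by omega) _)
      have h4 : p % 5 ≠ 4 := by
        intro h
        exact h5 (Dvd.dvd.mul_left (by omega) _)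
      omega
  · intro h
    have h4 : 4 ≤ Fintype.card F := by
      rcases h with ⟨r, hr, h⟩ | ⟨r, hr, -, h⟩ | ⟨-, h, -⟩ | h
      · rw [h]
        calc 4 = 2 ^ 2 := by norm_num
          _ ≤ 2 ^ r := Nat.pow_le_pow_right (by norm_num) hr.two_le
      · rw [h]
        calc 4 ≤ 3 ^ 2 := by norm_num
          _ ≤ 3 ^ r := Nat.pow_le_pow_right (by norm_num) hr.two_le
      · omega
      · omega
    refine ⟨psl_simple h4, fun h' => psl_not_comm h4 (isMulCommutative_iff.mp h'), ?_⟩
    intro L hL
    by_contra hs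
    have hLt : Nat.card L < Nat.card (Matrix.ProjectiveSpecialLinearGroup (Fin 2) F) := by
      by_contra hcon
      exact hL (Subgroup.eq_top_of_le_card L (by omega))
    have hdvd : Nat.card L ∣ Nat.card (Matrix.ProjectiveSpecialLinearGroup (Fin 2) F) := Subgroup.card_subgroup_dvd_card L
    have hval : ∀ q, Fintype.card F = q → Nat.gcd 2 (q - 1) * Nat.card (Matrix.ProjectiveSpecialLinearGroup (Fin 2) F) = q * ((q - 1) * (q + 1)) := by
      rintro q rfl; exact hcard
    have h5 : 60 ∣ Nat.card (Matrix.ProjectiveSpecialLinearGroup (Fin 2) F) → 5 ∣ Fintype.card F * ((Fintype.card F - 1) * (Fintype.card F + 1)) := by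
      intro h
      rw [← hcard]
      exact Dvd.dvd.mul_left (dvd_trans (by norm_num) h) _
    rcases nonsolv_cases L hL hs with ⟨⟨e⟩⟩ | ⟨k, m, hk, hm, hkm, -, -⟩
    · rw [Nat.card_congr e.toEquiv, card_a5] at hLt hdvd
      have h5 := h5 hdvd
      clear hdvd hcard
      generalize Nat.card (Matrix.ProjectiveSpecialLinearGroup (Fin 2) F) = C at hLt hval
      rcases h with ⟨r, hr, h⟩ | ⟨r, hr, hr2, h⟩ | ⟨hq, h, h'⟩ | h
      · rw [h] at h5
        have h6 : 5 ∣ (2 ^ r - 1) * (2 ^ r + 1) := (Nat.Coprime.dvd_of_dvd_mul_left (Nat.Coprime.pow_right r (by norm_num)) h5)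
        have hr' : ¬ Odd r := fun h => pow_two_mod5 r h h6
        have hr2 : r = 2 := by
          rw [Nat.not_odd_iff_even] at hr'
          exact (Nat.Prime.even_iff hr).mp hr'
        subst hr2
        have := hval 4 (by rw [h]; norm_num)
        norm_num at this
        omega
      · rw [h] at h5
        have h6 : 5 ∣ (3 ^ r - 1) * (3 ^ r + 1) := (Nat.Coprime.dvd_of_dvd_mul_left (Nat.Coprime.pow_right r (by norm_num)) h5)
        exact pow_three_mod5 r (hr.odd_of_ne_two hr2) h6
      · generalize Fintype.card F = q at hq h h' h5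
        rcases (Nat.prime_five.dvd_mul).mp h5 with h6 | h6
        · omega
        · rcases (Nat.prime_five.dvd_mul).mp h6 with h7 | h7 <;> omega
      · have := hval 5 h
        norm_num at this
        omega
    · have hnp : ¬ (Fintype.card F).Prime := by
        intro hp
        rw [← hkm] at hp
        exact Nat.Prime.not_prime_pow hm hp
      rcases h with ⟨r, hr, h⟩ | ⟨r, hr, hr2, h⟩ | ⟨hq, h, h'⟩ | h
      · exact no_pow Nat.prime_two hr (by norm_num) hk hm (hkm.trans h)
      · exact no_pow Nat.prime_three hr (by norm_num) hk hm (hkm.trans h)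
      · exact hnp hq
      · exact hnp (by rw [h]; exact Nat.prime_five)

end Cfsg.Agent.S0810
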