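import Cfsg.Statements.S1011
import Mathlib
import Cfsg.Agent.LibO504c
import Cfsg.Agent.LibS3T8
-- import your own Cfsg.Agent.* helpers here

set_option autoImplicit false
open Cfsg

namespace Cfsg.Agent.S1011

universe u v

theorem main (G : Type u) [Group G] [Finite G] [IsSimpleGroup G] (h : Nat.card G = 504) (F : Type v) [Field F] [Fintype F] (hF : Fintype.card F = 8) :
    Nonempty (G ≃* Matrix.ProjectiveSpecialLinearGroup (Fin 2) F) := by
  classical
  haveI := Fintype.ofFinite (Sylow 2 G)
  have hc : Fintype.card (Sylow 2 G) = 2 ^ 3 + 1 := by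
    rw [← Nat.card_eq_fintype_card, CfsgLib.O504.card2 h]; rfl
  obtain ⟨F', i1, i2, hF', ⟨e⟩⟩ := CfsgLib.S3T8.main (G := G) (Ω := Sylow 2 G) (f := 3) (by norm_num) hc
    (fun a b c a' b' c' h1 h2 h3 h4 h5 h6 => CfsgLib.O504.trans3 h a b c a' b' c' h1 h2 h3 h4 h5 h6)
    (fun g a b c h1 h2 h3 h4 h5 h6 => CfsgLib.O504.sharp h h1 h2 h3 h4 h5 h6)
  have e2 : F' ≃+* F := FiniteField.ringEquivOfCardEq (by rw [hF', hF]; rfl)
  haveI : Finite (Matrix.ProjGenLinGroup (Fin 2) F) := by
    unfold Matrix.ProjGenLinGroup; infer_instance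
  have h1 : Nat.card (Matrix.ProjGenLinGroup (Fin 2) F) = 504 := by
    rw [CfsgLib.Dk29.card_PGL, hF]
  have h2 : Nat.card (Matrix.ProjectiveSpecialLinearGroup (Fin 2) F) = 504 := by
    have := CfsgLib.Dk29.card_PSL (F := F)
    rw [hF] at this
    have h3 : Nat.gcd 2 (8 - 1) = 1 := by decide
    rw [h3, one_mul] at this
    rw [this]
  have hbij : Function.Bijective (Matrix.ProjectiveSpecialLinearGroup.toPGL : Matrix.ProjectiveSpecialLinearGroup (Fin 2) F →* Matrix.ProjGenLinGroup (Fin 2) F) := by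
    rw [Nat.bijective_iff_injective_and_card]
    exact ⟨Matrix.ProjectiveSpecialLinearGroup.toPGL_injective, by rw [h1, h2]⟩
  exact ⟨(e.trans (CfsgLib.Dk29.pglCongr e2)).trans (MulEquiv.ofBijective _ hbij).symm⟩

/-- A simple group of order 504 is isomorphic to the projective special linear group of dimension 2 over the field with 8 elements. -/
theorem result {G : Type*} [Group G] [Finite G] [IsSimpleGroup G] (h : Nat.card G = 504) {F : Type*} [Field F] [Fintype F] (hF : Fintype.card F = 8) : Nonempty (G ≃* Matrix.ProjectiveSpecialLinearGroup (Fin 2) F) := by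
    exact main G h F hF

end Cfsg.Agent.S1011
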