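import Cfsg.Statements.S1153
import Cfsg.Agent.LibRee2

set_option autoImplicit false
open Cfsg

namespace Cfsg.Agent.S1153

open CfsgLib.Chev CfsgLib.Rank1

/-- In the small Ree group ²G₂(q), q = 3^(2m+1), realised as G¹ inside the Chevalley group G₂ over the field with q elements, with `B¹ = G¹ ∩ B`: in the action of `G¹` on the cosets of `B¹`, the joint stabiliser of any three distinct cosets has order at most 2, and for some three distinct cosets it has order exactly 2. -/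
theorem result {K : Type*} [Field K] [Fintype K] {m : ℕ} (hK : Fintype.card K = 3 ^ (2 * m + 1)) :
    (∀ x y z : ↥(Cfsg.Lie.twistedG2 K (3 ^ m)) ⧸ ((Cfsg.Lie.chevG2.borelSubgroup K ⊓ Cfsg.Lie.twistedG2 K (3 ^ m))).subgroupOf (Cfsg.Lie.twistedG2 K (3 ^ m)), x ≠ y → x ≠ z → y ≠ z →
        Nat.card ↥(MulAction.stabilizer ↥(Cfsg.Lie.twistedG2 K (3 ^ m)) x ⊓ MulAction.stabilizer ↥(Cfsg.Lie.twistedG2 K (3 ^ m)) y ⊓ MulAction.stabilizer ↥(Cfsg.Lie.twistedG2 K (3 ^ m)) z) ≤ 2) ∧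
      ∃ x y z : ↥(Cfsg.Lie.twistedG2 K (3 ^ m)) ⧸ ((Cfsg.Lie.chevG2.borelSubgroup K ⊓ Cfsg.Lie.twistedG2 K (3 ^ m))).subgroupOf (Cfsg.Lie.twistedG2 K (3 ^ m)), x ≠ y ∧ x ≠ z ∧ y ≠ z ∧
        Nat.card ↥(MulAction.stabilizer ↥(Cfsg.Lie.twistedG2 K (3 ^ m)) x ⊓ MulAction.stabilizer ↥(Cfsg.Lie.twistedG2 K (3 ^ m)) y ⊓ MulAction.stabilizer ↥(Cfsg.Lie.twistedG2 K (3 ^ m)) z) = 2 := by
  have : Fact (Nat.Prime 3) := ⟨Nat.prime_three⟩
  have : CharP K 3 := charP_of_card Nat.prime_three hK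
  obtain ⟨f, hf⟩ := exists_frobp K 3 m
  have hFx : Cfsg.Lie.twistedG2 K (3 ^ m) = (TwG2.S f).Fx := (TwG2.R hf hK).toTwR.E_eq
  have S := TwG2.split hf hK
  have hcent : ∀ u : ↥(Cfsg.Lie.twistedG2 K (3 ^ m)), u ∈ (Cfsg.Lie.chevG2.posUnipotent K ⊓ Cfsg.Lie.twistedG2 K (3 ^ m)).subgroupOf (Cfsg.Lie.twistedG2 K (3 ^ m)) → u ≠ 1 →
      ((((Cfsg.Lie.chevG2.diagonalSubgroup K ⊓ Cfsg.Lie.twistedG2 K (3 ^ m)).subgroupOf (Cfsg.Lie.twistedG2 K (3 ^ m))) ⊓ Subgroup.centralizer {u} : Subgroup ↥(Cfsg.Lie.twistedG2 K (3 ^ m))) :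
        Set ↥(Cfsg.Lie.twistedG2 K (3 ^ m))) ⊆ {1, ⟨TwG2.hG f (-1), TwG2.hG_neg_one hf⟩} := by
    rintro u hu hu1 x ⟨hx, hc0⟩
    have hc := Subgroup.mem_centralizer_singleton_iff.1 hc0
    have hx' : (x : GL Cfsg.Lie.chevG2.Idx K) ∈ Cfsg.Lie.chevG2.diagonalSubgroup K ⊓ (TwG2.S f).Fx := by rw [← hFx]; exact hx
    obtain ⟨s, hs⟩ := (TwG2.H_iff hf hK).1 hx'
    have hu' : (u : GL Cfsg.Lie.chevG2.Idx K) ∈ Cfsg.Lie.chevG2.posUnipotent K ⊓ (TwG2.S f).Fx := by rw [← hFx]; exact hu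
    obtain ⟨t, a, b, e⟩ := TwG2.U_Fx hf hK hu'
    have hc' := congrArg Subtype.val hc
    have hc2 : (x : GL Cfsg.Lie.chevG2.Idx K) * (u : GL Cfsg.Lie.chevG2.Idx K) = (u : GL Cfsg.Lie.chevG2.Idx K) * x := by exact hc'
    rw [hs, e] at hc2
    have hne : TwG2.uW f t a b ≠ 1 := by
      intro h; apply hu1; apply Subtype.ext; rw [e, h]; rfl
    rcases TwG2.comm_pm hf hK hne hc2 with h | h
    · left
      apply Subtype.ext
      rw [hs, h]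
      exact map_one (TwG2.hGh f)
    · right
      rw [Set.mem_singleton_iff]
      apply Subtype.ext
      rw [hs, h]
  have hz : TwG2.hG f (-1 : Kˣ) ≠ 1 := by
    intro h
    have h1 : TwG2.hG f (-1 : Kˣ) = TwG2.hG f 1 := by rw [h]; exact (map_one (TwG2.hGh f)).symm
    have h2 := congrArg Units.val (TwG2.hG_inj h1)
    simp only [Units.val_neg, Units.val_one] at h2
    have h6 : (2 : K) = 0 := by
      have : (1 : K) + 1 = 0 := by nth_rewrite 1 [← h2]; ring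
      rw [← this]; norm_num
    have h8 := TwG2.hp3 (K := K)
    push_cast at h8
    exact one_ne_zero (α := K) (by
      calc (1 : K) = 3 - 2 := by norm_num
        _ = 0 := by rw [h6, h8, sub_zero])
  constructor
  · intro x y z hxy hxz hyz
    obtain ⟨u, hu, hu1, e⟩ := S.card_stab3 x y z hxy hxz hyz
    rw [e]
    have h1 := Set.ncard_le_ncard (hcent u hu hu1)
    exact h1.trans (Set.ncard_insert_le _ _ |>.trans (by rw [Set.ncard_singleton]))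
  · set u : ↥(Cfsg.Lie.twistedG2 K (3 ^ m)) := ⟨TwG2.uW f 0 1 0, TwG2.uW_mem hf 0 1 0⟩ with hud
    have hu : u ∈ (Cfsg.Lie.chevG2.posUnipotent K ⊓ Cfsg.Lie.twistedG2 K (3 ^ m)).subgroupOf (Cfsg.Lie.twistedG2 K (3 ^ m)) :=
      ⟨TwG2.uW_U _ _ _, u.2⟩
    have hu1 : u ≠ 1 := by
      intro h
      have := (TwG2.uW_eq_one (f := f)).1 (congrArg Subtype.val h)
      exact one_ne_zero this.2.1
    obtain ⟨h1, h2, h3⟩ := S.std_ne hu hu1
    refine ⟨_, _, _, h1, h2, h3, ?_⟩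
    rw [S.stab3 hu]
    have h4 : ((((Cfsg.Lie.chevG2.diagonalSubgroup K ⊓ Cfsg.Lie.twistedG2 K (3 ^ m)).subgroupOf (Cfsg.Lie.twistedG2 K (3 ^ m))) ⊓ Subgroup.centralizer {u} : Subgroup ↥(Cfsg.Lie.twistedG2 K (3 ^ m))) :
        Set ↥(Cfsg.Lie.twistedG2 K (3 ^ m))) = {1, ⟨TwG2.hG f (-1), TwG2.hG_neg_one hf⟩} := by
      apply Set.Subset.antisymm (hcent u hu hu1)
      rintro x (rfl | hx)
      · exact Subgroup.one_mem _
      · rw [Set.mem_singleton_iff] at hx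
        subst hx
        refine ⟨⟨((TwG2.H_iff hf hK).2 ⟨-1, rfl⟩).1, TwG2.hG_neg_one hf⟩, Subgroup.mem_centralizer_singleton_iff.2 ?_⟩
        apply Subtype.ext
        show TwG2.hG f (-1 : Kˣ) * TwG2.uW f 0 1 0 = TwG2.uW f 0 1 0 * TwG2.hG f (-1 : Kˣ)
        rw [TwG2.comm_iff0 hf hK, TwG2.psi_neg_one hf]
        simp
    have h5 : Nat.card ↥(((Cfsg.Lie.chevG2.diagonalSubgroup K ⊓ Cfsg.Lie.twistedG2 K (3 ^ m)).subgroupOf (Cfsg.Lie.twistedG2 K (3 ^ m))) ⊓ Subgroup.centralizer {u} : Subgroup ↥(Cfsg.Lie.twistedG2 K (3 ^ m))) =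
        Set.ncard ((((Cfsg.Lie.chevG2.diagonalSubgroup K ⊓ Cfsg.Lie.twistedG2 K (3 ^ m)).subgroupOf (Cfsg.Lie.twistedG2 K (3 ^ m))) ⊓ Subgroup.centralizer {u} : Subgroup ↥(Cfsg.Lie.twistedG2 K (3 ^ m))) :
        Set ↥(Cfsg.Lie.twistedG2 K (3 ^ m))) := rfl
    rw [h5, h4, Set.ncard_pair]
    intro h
    exact hz (congrArg Subtype.val h).symm

end Cfsg.Agent.S1153
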