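import Cfsg.Statements.S1554
import Cfsg.Agent.LibRestr28
import Cfsg.Agent.LibM24f

set_option autoImplicit false
open scoped Pointwise
open Cfsg

namespace Cfsg.Agent.S1554

/-- An octad stabiliser is a split extension: the joint stabiliser of the octad and a point outside it is a complement to the pointwise stabiliser of the octad, and is isomorphic to the alternating group of degree 8. -/
theorem result (o : Finset Cfsg.GolayPt) (ho : o ∈ Cfsg.octads) (p : Cfsg.GolayPt) (hp : p ∉ o) : (Cfsg.M24 ⊓ fixingSubgroup (Equiv.Perm Cfsg.GolayPt) (o : Set Cfsg.GolayPt)) ⊓ (Cfsg.M24 ⊓ MulAction.stabilizer (Equiv.Perm Cfsg.GolayPt) o ⊓ MulAction.stabilizer (Equiv.Perm Cfsg.GolayPt) p) = ⊥ ∧ (Cfsg.M24 ⊓ fixingSubgroup (Equiv.Perm Cfsg.GolayPt) (o : Set Cfsg.GolayPt)) ⊔ (Cfsg.M24 ⊓ MulAction.stabilizer (Equiv.Perm Cfsg.GolayPt) o ⊓ MulAction.stabilizer (Equiv.Perm Cfsg.GolayPt) p) = (Cfsg.M24 ⊓ MulAction.stabilizer (Equiv.Perm Cfsg.GolayPt)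 o) ∧ Nonempty (↥(Cfsg.M24 ⊓ MulAction.stabilizer (Equiv.Perm Cfsg.GolayPt) o ⊓ MulAction.stabilizer (Equiv.Perm Cfsg.GolayPt) p) ≃* alternatingGroup (Fin 8)) := by
  classical
  have hinf : (M24 ⊓ fixingSubgroup (Equiv.Perm GolayPt) (o : Set GolayPt)) ⊓
      (M24 ⊓ MulAction.stabilizer (Equiv.Perm GolayPt) o ⊓ MulAction.stabilizer (Equiv.Perm GolayPt) p) = ⊥ := by
    rw [eq_bot_iff]
    intro g hg
    rw [Subgroup.mem_inf, Subgroup.mem_inf, Subgroup.mem_inf, CfsgLib.Restr28.mem_fixing] at hg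
    rw [Subgroup.mem_bot]
    exact CfsgLib.Restr28.fix_nine ho hp hg.1.1 hg.1.2 hg.2.2
  have hsup : (M24 ⊓ fixingSubgroup (Equiv.Perm GolayPt) (o : Set GolayPt)) ⊔
      (M24 ⊓ MulAction.stabilizer (Equiv.Perm GolayPt) o ⊓ MulAction.stabilizer (Equiv.Perm GolayPt) p) =
      M24 ⊓ MulAction.stabilizer (Equiv.Perm GolayPt) o := by
    apply le_antisymm
    · apply sup_le
      · intro g hg
        rw [Subgroup.mem_inf, CfsgLib.Restr28.mem_fixing] at hg
        exact Subgroup.mem_inf.2 ⟨hg.1, CfsgLib.Restr28.stab_of_fixing hg.2⟩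
      · exact inf_le_left
    · intro g hg
      rw [Subgroup.mem_inf] at hg
      have hgp : g p ∉ o := by
        rw [CfsgLib.Restr28.stab_iff.1 hg.2 p]; exact hp
      obtain ⟨e, he, heo, hep⟩ := CfsgLib.Restr28.ptw_trans ho hp hgp
      have h1 : g = e * (e⁻¹ * g) := by group
      rw [h1]
      apply mul_mem
      · exact Subgroup.mem_sup_left (Subgroup.mem_inf.2 ⟨he, CfsgLib.Restr28.mem_fixing.2 heo⟩)
      · apply Subgroup.mem_sup_right
        refine Subgroup.mem_inf.2 ⟨Subgroup.mem_inf.2 ⟨mul_mem (inv_mem he) hg.1, ?_⟩, ?_⟩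
        · exact mul_mem (inv_mem (CfsgLib.Restr28.stab_of_fixing heo)) hg.2
        · show (e⁻¹ * g) p = p
          rw [Equiv.Perm.mul_apply, ← hep]; simp
  refine ⟨hinf, hsup, ?_⟩
  -- the order
  have hS : ∀ g ∈ M24 ⊓ MulAction.stabilizer (Equiv.Perm GolayPt) o ⊓ MulAction.stabilizer (Equiv.Perm GolayPt) p,
      ∀ x, g x ∈ o ↔ x ∈ o :=
    fun g hg => CfsgLib.Restr28.stab_iff.1 (Subgroup.mem_inf.1 (Subgroup.mem_inf.1 hg).1).2
  have hcard : Nat.card ↥(M24 ⊓ MulAction.stabilizer (Equiv.Perm GolayPt) o ⊓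
      MulAction.stabilizer (Equiv.Perm GolayPt) p) = 20160 := by
    have h1 := CfsgLib.M24.card_inf_stabilizer (M24 ⊓ MulAction.stabilizer (Equiv.Perm GolayPt) o) p
    have h2 : (MulAction.orbit ↥(M24 ⊓ MulAction.stabilizer (Equiv.Perm GolayPt) o) p).ncard = 16 := by
      have h3 : MulAction.orbit ↥(M24 ⊓ MulAction.stabilizer (Equiv.Perm GolayPt) o) p = ((oᶜ : Finset GolayPt) : Set GolayPt) := by
        ext q
        rw [Finset.mem_coe, Finset.mem_compl]
        constructor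
        · rintro ⟨g, rfl⟩
          show (g : Equiv.Perm GolayPt) p ∉ o
          rw [CfsgLib.Restr28.stab_iff.1 (Subgroup.mem_inf.1 g.2).2 p]; exact hp
        · intro hq
          obtain ⟨e, he, heo, hep⟩ := CfsgLib.Restr28.ptw_trans ho hp hq
          exact ⟨⟨e, Subgroup.mem_inf.2 ⟨he, CfsgLib.Restr28.stab_of_fixing heo⟩⟩, hep⟩
      rw [h3, Set.ncard_coe_finset, Finset.card_compl, CfsgLib.Golay.card_pt, show o.card = 8 from ho.2]
    rw [h2, CfsgLib.Restr28.card_stab_oct ho] at h1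
    omega
  have h4 := CfsgLib.Restr28.card_range_restr _ o hS ⊥ bot_le (by
    intro g hg
    rw [Subgroup.mem_bot]
    constructor
    · rintro rfl x _; rfl
    · intro h
      exact CfsgLib.Restr28.fix_nine ho hp (Subgroup.mem_inf.1 (Subgroup.mem_inf.1 hg).1).1 h (Subgroup.mem_inf.1 hg).2)
  rw [hcard, Subgroup.card_bot, mul_one] at h4
  have h5 := CfsgLib.Restr28.range_octad ho _ hS h4
  have hinj : Function.Injective (CfsgLib.Restr28.restr _ o hS) := by
    rw [← MonoidHom.ker_eq_bot_iff, eq_bot_iff]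
    intro g hg
    rw [CfsgLib.Restr28.mem_ker_restr] at hg
    rw [Subgroup.mem_bot]
    apply Subtype.ext
    exact CfsgLib.Restr28.fix_nine ho hp (Subgroup.mem_inf.1 (Subgroup.mem_inf.1 g.2).1).1 hg (Subgroup.mem_inf.1 g.2).2
  have e1 := MonoidHom.ofInjective hinj
  have e2 : ↥o ≃ Fin 8 := Fintype.equivFinOfCardEq (by rw [Fintype.card_coe]; exact ho.2)
  exact ⟨e1.trans ((MulEquiv.subgroupCongr h5).trans (Equiv.altCongrHom e2))⟩

end Cfsg.Agent.S1554
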