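import Cfsg.Statements.S1892
import Mathlib
import Cfsg.Agent.LibPSolv19
import Cfsg.Agent.LibCoprime
import Cfsg.Agent.LibCtH12

set_option autoImplicit false
open Cfsg

namespace Cfsg.Agent.S1892

/-- Let S be a finite p-solvable group with no nontrivial normal subgroup of order prime to p, A a p-subgroup of S, and Q a nontrivial A-invariant subgroup of order prime to p with [A, Q] = Q. Then the commutator [O_p(S), A, Q] is nontrivial. -/
theorem result {S : Type*} [Group S] [Finite S] {p : ℕ} [Fact p.Prime]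
    (hS : Cfsg.IsPSolvable p S) (hred : Cfsg.pPrimeCore p S = ⊥)
    (A Q : Subgroup S) (hA : IsPGroup p A) (hQ : ¬ p ∣ Nat.card Q) (hQ1 : Q ≠ ⊥)
    (hinv : ∀ a ∈ A, ∀ x ∈ Q, a * x * a⁻¹ ∈ Q) (hAQ : ⁅A, Q⁆ = Q) :
    ⁅⁅Cfsg.pCore p S, A⁆, Q⁆ ≠ ⊥ := by
  intro h
  set V := pCore p S with hV
  have hVn : V.Normal := inferInstance
  have hHH := CfsgLib.PSolv19.hall_higman hS hred
  have hQD : Q ≤ Subgroup.centralizer ((⁅V, A⁆ : Subgroup S) : Set S) := by
    rw [Subgroup.commutator_comm, Subgroup.commutator_eq_bot_iff_le_centralizer] at h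
    exact h
  have hQV : Q ≤ Subgroup.normalizer (V : Set S) := by
    rw [Subgroup.normalizer_eq_top_iff.2 hVn]; exact le_top
  have h1 := CfsgLib.CtH12.comm_act (Subgroup.normalizer_commutator_ge_left V A) (Subgroup.normalizer_commutator_ge_right V A)
    (hQD.trans (Subgroup.centralizer_le_normalizer _)) hQV le_rfl
  rw [hAQ] at h1
  have h2 : ⁅⁅V, Q⁆, Q⁆ = ⊥ := by
    rw [eq_bot_iff, ← h]
    exact Subgroup.commutator_mono h1 le_rfl
  have hVp : IsPGroup p V := CfsgLib.Cores.pCore_isPGroup p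
  have hcop := CfsgLib.CtH12.cop_of_pgroup hVp hQ
  have h3 := CfsgLib.Coprime.commutator_commutator_eq hQV hcop.symm (Or.inr (CfsgLib.CtH12.solv_of_pgroup hVp))
  rw [h2] at h3
  have h4 : Q ≤ V := by
    refine le_trans ?_ hHH
    rw [← Subgroup.commutator_eq_bot_iff_le_centralizer, Subgroup.commutator_comm]
    exact h3.symm
  apply hQ1
  rw [eq_bot_iff, ← CfsgLib.CtH12.inf_eq_bot_of_cop hcop]
  exact le_inf h4 le_rfl

end Cfsg.Agent.S1892
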