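import Cfsg.Statements.S1894
import Cfsg.Agent.LibKinf9

set_option autoImplicit false
open Cfsg

namespace Cfsg.Agent.S1894

open scoped commutatorElement

/-- Let P be a finite p-group, A a normal subgroup of P and B an abelian subgroup of A that is normal in P. Then some subgroup C of A containing B is normal in P and is self-centralizing and normal in A (C ∈ SCN(A)). -/
theorem result {P : Type*} [Group P] [Finite P] {p : ℕ} [Fact p.Prime] (hP : IsPGroup p P)
    (A : Subgroup P) [A.Normal] (B : Subgroup P) [B.Normal] (hBA : B ≤ A) (hB : IsMulCommutative B) :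
    ∃ C : Subgroup P, C.Normal ∧ B ≤ C ∧ Cfsg.IsSCN A C := by
  have hn := hP.isNilpotent
  obtain ⟨C, hBC, hC⟩ := (Set.toFinite {C : Subgroup P | C.Normal ∧ B ≤ C ∧ C ≤ A ∧
    IsMulCommutative C}).exists_le_maximal (a := B) ⟨inferInstance, le_rfl, hBA, hB⟩
  obtain ⟨hCn, hBC', hCA, hCc⟩ := hC.prop
  refine ⟨C, hCn, hBC, hCA, ?_, ?_⟩
  · haveI := hCn
    rw [Subgroup.normalizer_eq_top]; exact le_top
  have hCcen : C ≤ Subgroup.centralizer (C : Set P) := CfsgLib.Kinf9.abelian_le_centralizer hCc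
  apply le_antisymm _ (le_inf hCA hCcen)
  by_contra hne
  haveI := hCn
  have hNn : (A ⊓ Subgroup.centralizer (C : Set P)).Normal := by
    rw [← Subgroup.normalizer_eq_top_iff, eq_top_iff]
    refine CfsgLib.Kinf9.le_normalizer_inf' ?_ (CfsgLib.Kinf9.le_normalizer_centralizer ?_)
    · rw [Subgroup.normalizer_eq_top]
    · rw [Subgroup.normalizer_eq_top]
  obtain ⟨x, hx, hxC, hxq⟩ := CfsgLib.Kinf9.exists_comm_mem (Group.isNilpotent_top.2 hn)
    (C := A ⊓ Subgroup.centralizer (C : Set P)) (N := C) (Q := ⊤) le_top le_top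
    (by rw [Subgroup.normalizer_eq_top]) hne
  have hmem : (C ⊔ Subgroup.zpowers x) ∈ {C : Subgroup P | C.Normal ∧ B ≤ C ∧ C ≤ A ∧
    IsMulCommutative C} := by
    refine ⟨?_, hBC.trans le_sup_left, sup_le hCA (by rw [Subgroup.zpowers_le]; exact hx.1), ?_⟩
    · have h1 : (⊤ : Subgroup P) ≤ Subgroup.normalizer ((C ⊔ Subgroup.zpowers x : Subgroup P) : Set P) := by
        refine CfsgLib.Kinf9.le_normalizer_of_comm_le ?_
        have h2 : ⁅C ⊔ Subgroup.zpowers x, (⊤ : Subgroup P)⁆ ≤ C := by
          refine CfsgLib.Kinf9.commutator_sup_le (Subgroup.commutator_le_left _ _)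
            (CfsgLib.Kinf9.commutator_zpowers_le hxq ?_) ?_
          · rw [Subgroup.normalizer_eq_top]; trivial
          · rw [Subgroup.normalizer_eq_top]; exact le_top
        exact h2.trans le_sup_left
      exact Subgroup.normalizer_eq_top_iff.1 (eq_top_iff.2 h1)
    · rw [← Subgroup.commutator_self_eq_bot_iff, eq_bot_iff]
      refine (CfsgLib.Kinf9.adj_comm_le hx.2).trans ?_
      rw [Subgroup.commutator_self_eq_bot_iff.2 hCc]
  have := hC.eq_of_le hmem le_sup_left
  apply hxC
  rw [this]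
  exact SetLike.le_def.1 le_sup_right (Subgroup.mem_zpowers x)

end Cfsg.Agent.S1894
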