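import Cfsg.Statements.S1899
import Mathlib

set_option autoImplicit false
open Cfsg

namespace Cfsg.Agent.S1899

/-- Let a dihedral group of order 2n, n odd and n > 1, act on a finite abelian 2-group A through automorphisms d and t with d^n = 1, t² = 1 and t d t⁻¹ = d⁻¹, and suppose that d fixes only the identity. Then A is the internal direct product of C_A(t) and its image under d. -/
theorem result {A : Type*} [CommGroup A] [Finite A] (hA : IsPGroup 2 A)
    {n : ℕ} (hn : Odd n) (hn1 : 1 < n) (d t : MulAut A) (hd : d ^ n = 1) (ht : t ^ 2 = 1) (hdt : t * d * t⁻¹ = d⁻¹)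
    (hfix : ∀ a : A, d a = a → a = 1) :
    (MulEquiv.toMonoidHom t).eqLocus (MonoidHom.id A) ⊓ ((MulEquiv.toMonoidHom t).eqLocus (MonoidHom.id A)).map d.toMonoidHom = ⊥ ∧
      (MulEquiv.toMonoidHom t).eqLocus (MonoidHom.id A) ⊔ ((MulEquiv.toMonoidHom t).eqLocus (MonoidHom.id A)).map d.toMonoidHom = ⊤ := by
  classical
  set C := (MulEquiv.toMonoidHom t).eqLocus (MonoidHom.id A) with hC
  have hmemC : ∀ a : A, a ∈ C ↔ t a = a := fun a => Iff.rfl
  have htt : ∀ a : A, t (t a) = a := by
    intro a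
    have := congrArg (fun f : MulAut A => f a) ht
    simpa [pow_two] using this
  have htd : ∀ a : A, t (d a) = d⁻¹ (t a) := by
    intro a
    have h1 : t * d = d⁻¹ * t := by rw [← hdt]; group
    exact congrArg (fun f : MulAut A => f a) h1
  -- d² a = a → a = 1
  have hpow : ∀ (k : ℕ), (∀ a : A, (d ^ 2) a = a → (d ^ (2 * k)) a = a) := by
    intro k a ha
    induction k with
    | zero => simp
    | succ k ih =>
      rw [mul_add, mul_one, pow_add, MulAut.mul_apply, ha, ih]
  have hfix2 : ∀ a : A, (d ^ 2) a = a → a = 1 := by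
    intro a ha
    obtain ⟨m, hm⟩ := hn
    apply hfix
    have h1 : (d ^ (2 * m)) a = a := hpow m a ha
    have h2 : (d ^ (2 * m + 1)) a = a := by rw [← hm, hd]; rfl
    rw [pow_succ', MulAut.mul_apply, h1] at h2
    exact h2
  -- the second reflection
  have hmemD : ∀ a : A, a ∈ C.map d.toMonoidHom ↔ t (d⁻¹ a) = d⁻¹ a := by
    intro a
    constructor
    · rintro ⟨b, hb, rfl⟩
      have : d⁻¹ (d b) = b := MulAut.inv_apply_self A d b
      show t (d⁻¹ (d b)) = d⁻¹ (d b)
      rw [this]; exact hb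
    · intro h
      exact ⟨d⁻¹ a, h, MulAut.apply_inv_self A d a⟩
  constructor
  · rw [eq_bot_iff]
    intro a ha
    obtain ⟨h1, h2⟩ := Subgroup.mem_inf.1 ha
    rw [hmemC] at h1
    rw [hmemD] at h2
    rw [Subgroup.mem_bot]
    apply hfix2
    have h3 : t (d⁻¹ a) = d (t a) := by
      have e : t * d⁻¹ = d * t := by
        have : t * d * t⁻¹ = d⁻¹ := hdt
        have h5 : (t * d * t⁻¹)⁻¹ = d := by rw [this]; group
        have h6 : t * d⁻¹ * t⁻¹ = d := by
            calc t * d⁻¹ * t⁻¹ = (t * d * t⁻¹)⁻¹ := by group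
              _ = d := h5
        calc t * d⁻¹ = (t * d⁻¹ * t⁻¹) * t := by group
          _ = d * t := by rw [h6]
      exact congrArg (fun f : MulAut A => f a) e
    rw [h3, h1] at h2
    have h4 : d (d a) = d (d⁻¹ a) := by rw [h2]
    rw [MulAut.apply_inv_self] at h4
    rw [pow_two, MulAut.mul_apply]; exact h4
  · rw [eq_top_iff]
    intro a _
    set M := C ⊔ C.map d.toMonoidHom with hM
    -- t a * a ∈ M
    have h1 : ∀ b : A, t b * b ∈ M := by
      intro b
      apply SetLike.le_def.1 (le_sup_left : C ≤ M)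
      rw [hmemC, map_mul, htt, mul_comm]
    -- s b * b ∈ M where s = d t d⁻¹
    have h2 : ∀ b : A, (d * t * d⁻¹) b * b ∈ M := by
      intro b
      apply SetLike.le_def.1 (le_sup_right : C.map d.toMonoidHom ≤ M)
      rw [hmemD, map_mul, map_mul]
      have e1 : d⁻¹ ((d * t * d⁻¹) b) = t (d⁻¹ b) := by
        simp [MulAut.mul_apply]
      rw [e1, htt, mul_comm]
    -- e = s * t = d^2
    have hst : (d * t * d⁻¹) * t = d ^ 2 := by
      have e : t * d⁻¹ = d * t := by
        have h5 : (t * d * t⁻¹)⁻¹ = d := by rw [hdt]; group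
        have h6 : t * d⁻¹ * t⁻¹ = d := by
            calc t * d⁻¹ * t⁻¹ = (t * d * t⁻¹)⁻¹ := by group
              _ = d := h5
        calc t * d⁻¹ = (t * d⁻¹ * t⁻¹) * t := by group
          _ = d * t := by rw [h6]
      calc (d * t * d⁻¹) * t = d * (t * d⁻¹) * t := by group
        _ = d * (d * t) * t := by rw [e]
        _ = d * d * (t ^ 2) := by rw [pow_two]; group
        _ = d ^ 2 := by rw [ht, mul_one, pow_two]
    have h3 : ∀ b : A, (d ^ 2) b * b⁻¹ ∈ M := by
      intro b
      have h4 := h2 (t b)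
      rw [← MulAut.mul_apply, hst] at h4
      have h5 := h1 b
      have h6 := M.mul_mem h4 (M.inv_mem h5)
      have e : (d ^ 2) b * t b * (t b * b)⁻¹ = (d ^ 2) b * b⁻¹ := by
        rw [mul_inv]
        calc (d ^ 2) b * t b * ((t b)⁻¹ * b⁻¹) = (d ^ 2) b * (t b * (t b)⁻¹) * b⁻¹ := by
              simp only [mul_assoc]
          _ = _ := by rw [mul_inv_cancel, mul_one]
      rwa [e] at h6
    have h4 : ∀ (k : ℕ) (b : A), (d ^ (2 * k)) b * b⁻¹ ∈ M := by
      intro k b
      induction k with
      | zero => simp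
      | succ k ih =>
        have h5 := h3 ((d ^ (2 * k)) b)
        have h6 := M.mul_mem h5 ih
        rw [← MulAut.mul_apply, ← pow_add] at h6
        have e : (d ^ (2 + 2 * k)) b * ((d ^ (2 * k)) b)⁻¹ * ((d ^ (2 * k)) b * b⁻¹) =
          (d ^ (2 * (k + 1))) b * b⁻¹ := by
          have e2 : 2 + 2 * k = 2 * (k + 1) := by ring
          rw [e2]; group
        rwa [e] at h6
    -- product over all k is fixed by d^2, hence 1
    set S : A := ∏ k ∈ Finset.range n, (d ^ (2 * k)) a with hS
    have hS1 : S = 1 := by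
      apply hfix2
      rw [hS, map_prod]
      have e1 : ∀ k, (d ^ 2) ((d ^ (2 * k)) a) = (d ^ (2 * (k + 1))) a := by
        intro k
        rw [← MulAut.mul_apply, ← pow_add]
        congr 2; ring
      simp_rw [e1]
      have e2 := Finset.prod_range_succ (fun k => (d ^ (2 * k)) a) n
      have e3 := Finset.prod_range_succ' (fun k => (d ^ (2 * k)) a) n
      rw [e3] at e2
      have e4 : (d ^ (2 * n)) a = (d ^ (2 * 0)) a := by
        rw [mul_comm, pow_mul, hd]; simp
      rw [e4] at e2
      exact mul_right_cancel e2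
    have h5 : S * (a ^ n)⁻¹ ∈ M := by
      have : S * (a ^ n)⁻¹ = ∏ k ∈ Finset.range n, ((d ^ (2 * k)) a * a⁻¹) := by
        rw [Finset.prod_mul_distrib, Finset.prod_const, Finset.card_range, inv_pow]
      rw [this]
      exact M.prod_mem fun k _ => h4 k a
    rw [hS1, one_mul] at h5
    have h6 : a ^ n ∈ M := by simpa using M.inv_mem h5
    obtain ⟨k, hk⟩ := (IsPGroup.iff_orderOf.1 hA) a
    have hcop : n.Coprime (orderOf a) := by
      rw [hk]; exact Nat.Coprime.pow_right k (Nat.coprime_two_right.2 hn)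
    obtain ⟨j, hj⟩ := exists_pow_eq_self_of_coprime hcop
    rw [← hj]; exact M.pow_mem h6 j

end Cfsg.Agent.S1899
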