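import Cfsg.Statements.S1900
import Mathlib
import Cfsg.Agent.LibCtH12b

set_option autoImplicit false
open Cfsg

namespace Cfsg.Agent.S1900

theorem eq_zpowers {G : Type*} [Group G] [Finite G] {q : ℕ} [hq : Fact q.Prime] {X : Subgroup G} (hX : Nat.card X = q)
    {x : G} (hx : x ∈ X) (hx1 : x ≠ 1) : Subgroup.zpowers x = X := by
  have h1 : Subgroup.zpowers x ≤ X := by rwa [Subgroup.zpowers_le]
  apply Subgroup.eq_of_le_of_card_ge h1
  have h2 : Nat.card (Subgroup.zpowers x) ∣ q := by rw [← hX]; exact Subgroup.card_dvd_of_le h1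
  rcases (Nat.dvd_prime hq.out).1 h2 with h3 | h3
  · exfalso
    apply hx1
    have := Subgroup.card_eq_one.1 h3
    rwa [Subgroup.zpowers_eq_bot] at this
  · rw [h3, hX]

theorem exists_ne {G : Type*} [Group G] [Finite G] {q : ℕ} [hq : Fact q.Prime] {X : Subgroup G} (hX : Nat.card X = q) :
    ∃ x ∈ X, x ≠ 1 := by
  by_contra hcon
  push Not at hcon
  have : X = ⊥ := by rw [eq_bot_iff]; intro x hx; exact Subgroup.mem_bot.2 (hcon x hx)
  rw [this, Subgroup.card_bot] at hX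
  exact hq.out.one_lt.ne hX


/-- Let S = PQ be a finite group with P a normal Sylow p-subgroup and Q elementary abelian of order q², q a prime different from p. If exactly two subgroups X₁, X₂ of order q in Q have a nontrivial centralizer in P, then P is the internal direct product of C_P(X₁) and C_P(X₂): they commute elementwise, meet trivially and generate P. -/
theorem result {S : Type*} [Group S] [Finite S] {p q : ℕ} [Fact p.Prime] [Fact q.Prime] (hpq : p ≠ q)
    (P : Sylow p S) [(P : Subgroup S).Normal] (Q : Subgroup S) (hQ : Cfsg.IsElementaryAbelian q Q) (hQc : Nat.card Q = q ^ 2)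
    (hS : (P : Subgroup S) ⊔ Q = ⊤)
    (X₁ X₂ : Subgroup S) (h₁ : X₁ ≤ Q) (h₂ : X₂ ≤ Q) (h₁₂ : X₁ ≠ X₂) (hc₁ : Nat.card X₁ = q) (hc₂ : Nat.card X₂ = q)
    (hf₁ : (P : Subgroup S) ⊓ Subgroup.centralizer (X₁ : Set S) ≠ ⊥)
    (hf₂ : (P : Subgroup S) ⊓ Subgroup.centralizer (X₂ : Set S) ≠ ⊥)
    (honly : ∀ X : Subgroup S, X ≤ Q → Nat.card X = q →
      (P : Subgroup S) ⊓ Subgroup.centralizer (X : Set S) ≠ ⊥ → X = X₁ ∨ X = X₂) :
    ⁅(P : Subgroup S) ⊓ Subgroup.centralizer (X₁ : Set S), (P : Subgroup S) ⊓ Subgroup.centralizer (X₂ : Set S)⁆ = ⊥ ∧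
      ((P : Subgroup S) ⊓ Subgroup.centralizer (X₁ : Set S)) ⊓ ((P : Subgroup S) ⊓ Subgroup.centralizer (X₂ : Set S)) = ⊥ ∧
      ((P : Subgroup S) ⊓ Subgroup.centralizer (X₁ : Set S)) ⊔ ((P : Subgroup S) ⊓ Subgroup.centralizer (X₂ : Set S)) = P := by
  have hp : p.Prime := Fact.out
  have hq : q.Prime := Fact.out
  have hQp : ¬ p ∣ Nat.card Q := by
    rw [hQc]
    intro h
    exact hpq ((Nat.prime_dvd_prime_iff_eq hp hq).1 (hp.dvd_of_dvd_pow h))
  have hQQ : ∀ a ∈ Q, ∀ b ∈ Q, a * b = b * a := fun a ha b hb =>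
    congrArg Subtype.val (hQ.1.is_comm.comm ⟨a, ha⟩ ⟨b, hb⟩)
  have hQn : ¬ IsCyclic Q := by
    intro hc
    obtain ⟨g, hg⟩ := hc.exists_generator
    have h1 : orderOf g = Nat.card Q := orderOf_eq_card_of_forall_mem_zpowers hg
    have h2 : orderOf g ∣ q := orderOf_dvd_of_pow_eq_one (Subtype.ext (hQ.2 g g.2))
    rw [h1, hQc] at h2
    have := Nat.le_of_dvd hq.pos h2
    nlinarith [hq.two_le]
  have hcent : ∀ X : Subgroup S, Nat.card X = q → ∀ x ∈ X, x ≠ 1 →
      Subgroup.centralizer (X : Set S) = Subgroup.centralizer ({x} : Set S) := by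
    intro X hX x hx hx1
    rw [← eq_zpowers hX hx hx1]
    apply le_antisymm
    · apply Subgroup.centralizer_le
      rintro _ rfl
      exact Subgroup.mem_zpowers _
    · intro y hy
      rw [Subgroup.mem_centralizer_singleton_iff] at hy
      rw [Subgroup.mem_centralizer_iff]
      rintro _ ⟨n, rfl⟩
      exact ((show Commute y x from hy).zpow_right n).symm
  obtain ⟨x1, hx1, hx1'⟩ := exists_ne hc₁
  obtain ⟨x2, hx2, hx2'⟩ := exists_ne hc₂
  have hne : ∀ y : S, y ∈ X₁ → y ∈ X₂ → y = 1 := by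
    intro y hy1 hy2
    by_contra hy
    exact h₁₂ ((eq_zpowers hc₁ hy1 hy).symm.trans (eq_zpowers hc₂ hy2 hy))
  have h12 : ((P : Subgroup S) ⊓ Subgroup.centralizer (X₁ : Set S)) ⊓ ((P : Subgroup S) ⊓ Subgroup.centralizer (X₂ : Set S)) = ⊥ := by
    by_contra hcon
    have hx12 : x1 * x2 ≠ 1 := by
      intro h
      apply hx1'
      apply hne x1 hx1
      rw [eq_inv_of_mul_eq_one_left h]
      exact inv_mem hx2
    have hq3 : orderOf (x1 * x2) = q := by
      apply orderOf_eq_prime _ hx12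
      exact hQ.2 _ (mul_mem (h₁ hx1) (h₂ hx2))
    have h3 : Nat.card (Subgroup.zpowers (x1 * x2)) = q := by rw [Nat.card_zpowers, hq3]
    have h4 := honly (Subgroup.zpowers (x1 * x2)) (by
      rw [Subgroup.zpowers_le]; exact mul_mem (h₁ hx1) (h₂ hx2)) h3 (by
      intro h
      apply hcon
      rw [eq_bot_iff, ← h]
      refine le_inf (inf_le_left.trans inf_le_left) ?_
      rw [hcent _ h3 _ (Subgroup.mem_zpowers _) hx12]
      rintro y ⟨⟨_, hy1⟩, ⟨_, hy2⟩⟩
      rw [Subgroup.mem_centralizer_singleton_iff]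
      have e1 := (Subgroup.mem_centralizer_iff.1 hy1) x1 hx1
      have e2 := (Subgroup.mem_centralizer_iff.1 hy2) x2 hx2
      rw [← mul_assoc, ← e1, mul_assoc, ← e2, mul_assoc])
    rcases h4 with h4 | h4
    · have h5 : x1 * x2 ∈ X₁ := by rw [← h4]; exact Subgroup.mem_zpowers _
      exact hx2' (hne x2 ((Subgroup.mul_mem_cancel_left _ hx1).1 h5) hx2)
    · have h5 : x1 * x2 ∈ X₂ := by rw [← h4]; exact Subgroup.mem_zpowers _
      exact hx1' (hne x1 hx1 ((Subgroup.mul_mem_cancel_right _ hx2).1 h5))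
  have hgen : ∀ a ∈ Q, a ≠ 1 → (P : Subgroup S) ⊓ Subgroup.centralizer ({a} : Set S) ≤ (P : Subgroup S) ⊓ Subgroup.centralizer (X₁ : Set S) ∨
      (P : Subgroup S) ⊓ Subgroup.centralizer ({a} : Set S) ≤ (P : Subgroup S) ⊓ Subgroup.centralizer (X₂ : Set S) := by
    intro a ha ha1
    have h3 : Nat.card (Subgroup.zpowers a) = q := by
      rw [Nat.card_zpowers]
      exact orderOf_eq_prime (hQ.2 a ha) ha1
    by_cases hb : (P : Subgroup S) ⊓ Subgroup.centralizer ((Subgroup.zpowers a : Subgroup S) : Set S) = ⊥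
    · left
      rw [← hcent _ h3 a (Subgroup.mem_zpowers a) ha1, hb]
      exact bot_le
    · rcases honly _ (by rwa [Subgroup.zpowers_le]) h3 hb with h4 | h4
      · left
        rw [← h4, hcent _ h3 a (Subgroup.mem_zpowers a) ha1]
      · right
        rw [← h4, hcent _ h3 a (Subgroup.mem_zpowers a) ha1]
  refine ⟨CfsgLib.CtH12.two_fix P.isPGroup' hQp hQ.1 hQn hS h₁ h₂ h12 hgen, h12, ?_⟩
  apply le_antisymm (sup_le inf_le_left inf_le_left)
  haveI := hQ.1
  have hPQ : Q ≤ Subgroup.normalizer ((P : Subgroup S) : Set S) := by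
    rw [Subgroup.normalizer_eq_top_iff.2 inferInstance]; exact le_top
  have h1 := CfsgLib.Coprime2.generation_noncyclic hQn hPQ (CfsgLib.CtH12.cop_of_pgroup P.isPGroup' hQp).symm
  conv_lhs => rw [← h1]
  apply iSup₂_le
  rintro a ⟨ha, ha1⟩
  rcases hgen a ha ha1 with h | h
  · exact h.trans le_sup_left
  · exact h.trans le_sup_right

end Cfsg.Agent.S1900
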