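import Cfsg.Statements.S1901
import Mathlib
import Cfsg.Agent.LibPSolv19
import Cfsg.Agent.LibCoprime
import Cfsg.Agent.LibCores

set_option autoImplicit false
open Cfsg

namespace Cfsg.Agent.S1901

open Subgroup CfsgLib.Cores
open scoped commutatorElement
universe u

theorem le_of_not_dvd_index {G : Type*} [Group G] [Finite G] {p : ℕ} [hp : Fact p.Prime] {C : Subgroup G} [C.Normal]
    (hC : ¬ p ∣ C.index) {R : Subgroup G} (hR : IsPGroup p R) : R ≤ C := by
  have h1 : IsPGroup p (R.map (QuotientGroup.mk' C)) := hR.map _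
  obtain ⟨k, hk⟩ := IsPGroup.iff_card.1 h1
  have h2 : Nat.card (R.map (QuotientGroup.mk' C)) ∣ C.index := by
    rw [Subgroup.index_eq_card]
    exact Subgroup.card_subgroup_dvd_card _
  have h3 : k = 0 := by
    by_contra hk0
    apply hC
    refine dvd_trans ?_ h2
    rw [hk]
    exact dvd_pow_self p hk0
  rw [h3, pow_zero] at hk
  have h4 : R.map (QuotientGroup.mk' C) = ⊥ := Subgroup.card_eq_one.1 hk
  rw [Subgroup.map_eq_bot_iff, QuotientGroup.ker_mk'] at h4
  exact h4

theorem comm_le_of_quot {G : Type*} [Group G] {N Q R : Subgroup G} [N.Normal]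
    (h : ⁅Q.map (QuotientGroup.mk' N), R.map (QuotientGroup.mk' N)⁆ = ⊥) : ⁅Q, R⁆ ≤ N := by
  rw [← Subgroup.map_commutator, Subgroup.map_eq_bot_iff, QuotientGroup.ker_mk'] at h
  exact h

theorem inf_eq_bot_of_cop {G : Type*} [Group G] [Finite G] {A K : Subgroup G} (h : (Nat.card A).Coprime (Nat.card K)) : A ⊓ K = ⊥ := by
  have h1 : Nat.card ↥(A ⊓ K) ∣ 1 := by
    have := Nat.dvd_gcd (Subgroup.card_dvd_of_le (inf_le_left : A ⊓ K ≤ A))
      (Subgroup.card_dvd_of_le (inf_le_right : A ⊓ K ≤ K))
    rwa [h] at this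
  exact Subgroup.card_eq_one.mp (Nat.dvd_one.mp h1)

theorem cop_of_pgroup {G : Type*} [Group G] [Finite G] {p : ℕ} [hp : Fact p.Prime] {A K : Subgroup G} (hA : IsPGroup p A)
    (hK : ¬ p ∣ Nat.card K) : (Nat.card A).Coprime (Nat.card K) := by
  obtain ⟨k, hk⟩ := IsPGroup.iff_card.1 hA
  rw [hk]
  exact Nat.Coprime.pow_left k ((Nat.Prime.coprime_iff_not_dvd hp.out).2 hK)

theorem solv_of_pgroup {G : Type*} [Group G] [Finite G] {p : ℕ} [hp : Fact p.Prime] {P : Subgroup G} (h : IsPGroup p P) :
    Group.IsSolvable P := by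
  haveI := h.isNilpotent
  infer_instance

theorem comm_bot {p : ℕ} [hp : Fact p.Prime] : ∀ (n : ℕ) (G : Type u) [Group G] [Finite G], Nat.card G = n → IsPSolvable p G →
    ∀ (Q R : Subgroup G) (P : Sylow p G), ¬ p ∣ Nat.card Q → Q ≤ normalizer ((P : Subgroup G) : Set G) → IsPGroup p R →
      R ≤ normalizer (Q : Set G) → ⁅Q, R⁆ = ⊥ := by
  intro n
  induction n using Nat.strong_induction_on with
  | _ n ih =>
  intro G _ _ hn hG Q R P hQ hQP hR hRQ
  rcases subsingleton_or_nontrivial G with hsub | hnt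
  · exact Subsingleton.elim _ _
  have key : ∀ N : Subgroup G, N.Normal → N ≠ ⊥ → ⁅Q, R⁆ ≤ N := by
    intro N hN hne
    haveI := hN
    have hlt : Nat.card (G ⧸ N) < n := by
      rw [← hn, ← Subgroup.index_eq_card, ← Subgroup.card_mul_index N]
      have h1 : 1 < Nat.card N := by
        rw [Subgroup.one_lt_card_iff_ne_bot]; exact hne
      have h2 : 0 < N.index := Nat.pos_of_ne_zero Subgroup.index_ne_zero_of_finite
      nlinarith
    apply comm_le_of_quot
    refine ih _ hlt (G ⧸ N) rfl (CfsgLib.PSolv19.psolv_quotient hp.out hG N) _ _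
      (P.mapSurjective (QuotientGroup.mk'_surjective N)) ?_ ?_ (hR.map _) ?_
    · intro h
      exact hQ (h.trans (Subgroup.card_map_dvd Q _))
    · rw [Sylow.coe_mapSurjective]
      exact (Subgroup.map_mono hQP).trans (Subgroup.le_normalizer_map _)
    · exact (Subgroup.map_mono hRQ).trans (Subgroup.le_normalizer_map _)
  have hcomm : ⁅Q, R⁆ ≤ Q := CfsgLib.Coprime.commutator_le_of_le_normalizer hRQ
  rcases CfsgLib.PSolv19.psolv_core_ne_bot hG with h | h
  · have h1 := key _ inferInstance h
    have h2 : pCore p G ⊓ Q = ⊥ := inf_eq_bot_of_cop (cop_of_pgroup (pCore_isPGroup p) hQ)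
    rw [eq_bot_iff, ← h2]
    exact le_inf h1 hcomm
  · have h1 := key _ inferInstance h
    have hN : ¬ p ∣ Nat.card (pPrimeCore p G) := by
      intro h3
      have := (Nat.Prime.coprime_iff_not_dvd hp.out).1 (pPrimeCore_coprime (G := G) p).symm
      exact this h3
    have h2 : (P : Subgroup G) ⊓ pPrimeCore p G = ⊥ := inf_eq_bot_of_cop (cop_of_pgroup P.isPGroup' hN)
    have h3 : ⁅⁅Q, R⁆, (P : Subgroup G)⁆ = ⊥ := by
      rw [eq_bot_iff, ← h2]
      apply le_inf
      · rw [Subgroup.commutator_le]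
        intro a ha b hb
        have h4 := (Subgroup.mem_normalizer_iff.1 (hQP (hcomm ha)) b).1 hb
        rw [commutatorElement_def]
        exact Subgroup.mul_mem _ h4 (Subgroup.inv_mem _ hb)
      · rw [Subgroup.commutator_le]
        intro a ha b hb
        rw [commutatorElement_def, mul_assoc, mul_assoc]
        apply Subgroup.mul_mem _ (h1 ha)
        rw [← mul_assoc]
        exact (inferInstance : (pPrimeCore p G).Normal).conj_mem _ (Subgroup.inv_mem _ (h1 ha)) b
    have hRN : R ≤ normalizer ((⁅Q, R⁆ : Subgroup G) : Set G) := normalizer_commutator_ge_right Q R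
    set C := centralizer ((⁅Q, R⁆ : Subgroup G) : Set G) with hC
    set N := normalizer ((⁅Q, R⁆ : Subgroup G) : Set G) with hNd
    have hCN : C ≤ N := centralizer_le_normalizer _
    have hCn : (C.subgroupOf N).Normal := Subgroup.normal_subgroupOf_centralizer_normalizer _
    have hPC : (P : Subgroup G) ≤ C := by
      rw [Subgroup.commutator_comm, Subgroup.commutator_eq_bot_iff_le_centralizer] at h3
      exact h3
    have hidx : ¬ p ∣ (C.subgroupOf N).index := by
      intro h5
      have h6 : C.relIndex N ∣ C.index := Subgroup.relIndex_dvd_index_of_le hCN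
      have h7 : C.index ∣ (P : Subgroup G).index := Subgroup.index_dvd_of_le hPC
      exact P.not_dvd_index ((h5.trans h6).trans h7)
    have h8 : R.subgroupOf N ≤ C.subgroupOf N :=
      le_of_not_dvd_index hidx (hR.comap_of_injective _ N.subtype_injective)
    have h9 : R ≤ C := fun x hx => by
      have := h8 (Subgroup.mem_subgroupOf.2 (show ((⟨x, hRN hx⟩ : N) : G) ∈ R from hx))
      exact this
    have h10 := CfsgLib.Coprime.commutator_commutator_eq hRQ (cop_of_pgroup hR hQ) (Or.inl (solv_of_pgroup hR))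
    rw [← h10, Subgroup.commutator_comm, Subgroup.commutator_eq_bot_iff_le_centralizer]
    exact h9


/-- Let G be a finite p-solvable group and Q a subgroup of order prime to p such that p divides the index of C_G(Q) in N_G(Q). Then Q normalizes no Sylow p-subgroup of G. -/
theorem result {G : Type*} [Group G] [Finite G] {p : ℕ} [Fact p.Prime]
    (hG : Cfsg.IsPSolvable p G) (Q : Subgroup G) (hQ : ¬ p ∣ Nat.card Q)
    (hA : p ∣ (Subgroup.centralizer (Q : Set G)).relIndex (Subgroup.normalizer (Q : Set G)))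
    (P : Sylow p G) : ¬ Q ≤ Subgroup.normalizer ((P : Subgroup G) : Set G) := by
  intro hQP
  set N := Subgroup.normalizer (Q : Set G) with hNd
  set C := Subgroup.centralizer (Q : Set G) with hC
  have hCN : C ≤ N := Subgroup.centralizer_le_normalizer _
  obtain ⟨R⟩ : Nonempty (Sylow p N) := inferInstance
  have h1 := comm_bot (Nat.card G) G rfl hG Q ((R : Subgroup N).map N.subtype) P hQ hQP (R.isPGroup'.map _) (Subgroup.map_subtype_le _)
  rw [Subgroup.commutator_comm, Subgroup.commutator_eq_bot_iff_le_centralizer] at h1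
  have h2 : (R : Subgroup N) ≤ C.subgroupOf N := by
    intro x hx
    exact Subgroup.mem_subgroupOf.2 (h1 (Subgroup.mem_map_of_mem _ hx))
  exact R.not_dvd_index (hA.trans (Subgroup.index_dvd_of_le h2))

end Cfsg.Agent.S1901
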