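import Cfsg.Statements.S1905
import Mathlib
import Cfsg.Agent.LibStrongH12b
import Cfsg.Agent.LibStrongH12c

set_option autoImplicit false
open Cfsg

namespace Cfsg.Agent.S1905

open CfsgLib.StrongH12 in
theorem contains_sylow {S : Type*} [Group S] [Finite S] {M : Subgroup S} (hM : Even (Nat.card M))
    (hC : ∀ i ∈ M, orderOf i = 2 → Subgroup.centralizer ({i} : Set S) ≤ M) : ∃ T : Sylow 2 S, (T : Subgroup S) ≤ M := by
  haveI : Fact (Nat.Prime 2) := ⟨Nat.prime_two⟩
  obtain ⟨X⟩ : Nonempty (Sylow 2 M) := inferInstance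
  have hXne : (X : Subgroup M) ≠ ⊥ := by
    intro h
    have h1 := X.not_dvd_index
    rw [h, Subgroup.index_bot] at h1
    exact h1 hM.two_dvd
  obtain ⟨z, hz, hz2, hzc⟩ := exists_central_involution X.2 hXne
  have hXp : IsPGroup 2 ((X : Subgroup M).map M.subtype) := X.isPGroup'.map _
  obtain ⟨T, hT⟩ := hXp.exists_le_sylow
  have hTne : (T : Subgroup S) ≠ ⊥ := by
    intro h
    rw [h] at hT
    have : (z : S) = 1 := Subgroup.mem_bot.1 (hT ⟨z, hz, rfl⟩)
    have h2 : z = 1 := Subtype.ext this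
    rw [h2, orderOf_one] at hz2
    omega
  obtain ⟨t, ht, ht2, htc⟩ := exists_central_involution T.2 hTne
  have hzS : orderOf (z : S) = 2 := by rw [Subgroup.orderOf_coe, hz2]
  have htM : t ∈ M := by
    apply hC z z.2 hzS
    rw [Subgroup.mem_centralizer_singleton_iff]
    exact (htc z (hT ⟨z, hz, rfl⟩)).symm
  refine ⟨T, fun x hx => hC t htM ht2 ?_⟩
  rw [Subgroup.mem_centralizer_singleton_iff]
  exact htc x hx

open CfsgLib.StrongH12 CfsgLib.Invol in
theorem exists_out {S : Type*} [Group S] [Finite S] {M : Subgroup S} (hM : Even (Nat.card M))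
    (hcore : Odd (Nat.card M.normalCore)) : ∃ u : S, orderOf u = 2 ∧ u ∉ M := by
  by_contra hcon
  push Not at hcon
  obtain ⟨t, ht, ht2⟩ := exists_involution_mem hM
  have h1 : Subgroup.closure {x : S | orderOf x = 2} ≤ M := by
    rw [Subgroup.closure_le]
    exact fun x hx => hcon x hx
  have h2 : t ∈ M.normalCore := by
    intro b
    exact hcon _ (by rw [orderOf_conj]; exact ht2)
  exact not_odd_card_of_mem h2 ht2 hcore

open CfsgLib.StrongH12 CfsgLib.Invol in
theorem odd_mul' {S : Type*} [Group S] [Finite S] {M : Subgroup S}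
    (hC : ∀ i ∈ M, orderOf i = 2 → Subgroup.centralizer ({i} : Set S) ≤ M) {t u : S} (ht : t ∈ M) (ht2 : orderOf t = 2)
    (hu : u ∉ M) (hu2 : orderOf u = 2) : Odd (orderOf (t * u)) := by
  have comm_mem' : ∀ {t g : S}, t ∈ M → orderOf t = 2 → Commute g t → g ∈ M := by
    intro t g ht ht2 hg
    apply hC t ht ht2
    rw [Subgroup.mem_centralizer_singleton_iff]
    exact hg
  by_contra hne
  rw [Nat.not_odd_iff_even] at hne
  obtain ⟨k, hk⟩ := hne
  have hpos := orderOf_pos (t * u)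
  have hk0 : k ≠ 0 := by omega
  have hz2 : orderOf ((t * u) ^ k) = 2 := by
    rw [orderOf_pow_of_dvd hk0 (by rw [hk]; exact ⟨2, by ring⟩), hk, ← two_mul,
      Nat.mul_div_cancel _ (Nat.pos_of_ne_zero hk0)]
  have hzi : ((t * u) ^ k)⁻¹ = (t * u) ^ k := inv_eq hz2
  have h1 := inverts_pow (left_inverts ht2 hu2) k
  rw [hzi] at h1
  have h2 := inverts_pow (right_inverts ht2 hu2) k
  rw [hzi] at h2
  have h3 : (t * u) ^ k ∈ M := comm_mem' ht ht2 (mul_inv_eq_iff_eq_mul.1 h1).symm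
  exact hu (comm_mem' h3 hz2 (mul_inv_eq_iff_eq_mul.1 h2))

open CfsgLib.StrongH12 CfsgLib.Invol in
theorem all_conj {S : Type*} [Group S] [Finite S] {M : Subgroup S} (hM : Even (Nat.card M))
    (hC : ∀ i ∈ M, orderOf i = 2 → Subgroup.centralizer ({i} : Set S) ≤ M)
    (hcore : Odd (Nat.card M.normalCore)) (x y : S) (hx : orderOf x = 2) (hy : orderOf y = 2) : IsConj x y := by
  haveI : Fact (Nat.Prime 2) := ⟨Nat.prime_two⟩
  obtain ⟨T, hT⟩ := contains_sylow hM hC
  obtain ⟨u, hu2, hu⟩ := exists_out hM hcore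
  have key : ∀ x : S, orderOf x = 2 → IsConj x u := by
    intro x hx
    have htp : IsPGroup 2 (Subgroup.zpowers x) := by
      apply IsPGroup.of_card (n := 1)
      rw [Nat.card_zpowers, hx, pow_one]
    obtain ⟨P, hP⟩ := htp.exists_le_sylow
    obtain ⟨g, hg⟩ := MulAction.exists_smul_eq S T P
    have h1 : g⁻¹ * x * g ∈ (T : Subgroup S) := by
      have := hP (Subgroup.mem_zpowers x)
      rw [← hg] at this
      exact mem_smul_sylow.1 this
    have h2 : orderOf (g⁻¹ * x * g) = 2 := by rw [orderOf_conj', hx]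
    obtain ⟨d, -, hd⟩ := conj_of_odd h2 hu2 (odd_mul' hC (hT h1) h2 hu hu2)
    exact isConj_iff.2 ⟨d * g⁻¹, by rw [← hd]; group⟩
  exact (key x hx).trans (key y hy).symm

open CfsgLib.StrongH12 in
theorem conj_in {S : Type*} [Group S] [Finite S] {M : Subgroup S} (X : Sylow 2 M) (P : Sylow 2 S) (h : (P : Subgroup S) ≤ M) :
    ∃ m ∈ M, ∀ x, x ∈ (P : Subgroup S) ↔ m⁻¹ * x * m ∈ (X : Subgroup M).map M.subtype := by
  haveI : Fact (Nat.Prime 2) := ⟨Nat.prime_two⟩
  obtain ⟨m, hm⟩ := MulAction.exists_smul_eq M X (P.subtype h)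
  refine ⟨m, m.2, fun x => ⟨fun hx => ?_, fun hx => ?_⟩⟩
  · have h1 : (⟨x, h hx⟩ : M) ∈ P.subtype h := hx
    rw [← hm, mem_smul_sylow] at h1
    exact ⟨_, h1, rfl⟩
  · obtain ⟨y, hy, hyx⟩ := hx
    have h1 : m * y * m⁻¹ ∈ m • X := by
      rw [mem_smul_sylow]
      have : m⁻¹ * (m * y * m⁻¹) * m = y := by group
      rw [this]; exact hy
    rw [hm] at h1
    have h2 : ((m * y * m⁻¹ : M) : S) ∈ (P : Subgroup S) := h1
    have h3 : ((m * y * m⁻¹ : M) : S) = x := by
      have : (y : S) = (m : S)⁻¹ * x * m := hyx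
      push_cast
      rw [this]; group
    rwa [h3] at h2

open CfsgLib.StrongH12 CfsgLib.Invol in
theorem strongly {S : Type*} [Group S] [Finite S] {M : Subgroup S} (hM : Even (Nat.card M))
    (hC : ∀ i ∈ M, orderOf i = 2 → Subgroup.centralizer ({i} : Set S) ≤ M)
    (hcore : Odd (Nat.card M.normalCore)) (X : Sylow 2 M)
    (hN : Subgroup.normalizer (((X : Subgroup M).map M.subtype : Subgroup S) : Set S) ≤ M) : IsStronglyEmbedded M := by
  haveI : Fact (Nat.Prime 2) := ⟨Nat.prime_two⟩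
  refine ⟨?_, hM, ?_⟩
  · rintro rfl
    obtain ⟨u, -, hu⟩ := exists_out hM hcore
    exact hu (Subgroup.mem_top u)
  · intro g hg
    by_contra hcon
    rw [Nat.not_odd_iff_even] at hcon
    obtain ⟨t, ht, ht2⟩ := exists_involution_mem hcon
    obtain ⟨htM, t', ht'M, ht'⟩ := ht
    have ht'' : g * t' * g⁻¹ = t := ht'
    obtain ⟨T, hT⟩ := contains_sylow hM hC
    have hTne : (T : Subgroup S) ≠ ⊥ := by
      intro h
      have h1 := T.not_dvd_index
      rw [h, Subgroup.index_bot] at h1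
      exact h1 (hM.two_dvd.trans (Subgroup.card_subgroup_dvd_card M))
    obtain ⟨z, hz, hz2, hzc⟩ := exists_central_involution T.2 hTne
    obtain ⟨k, hk⟩ := isConj_iff.1 (all_conj hM hC hcore z t hz2 ht2)
    -- T' = k T k⁻¹ centralizes t
    have hT' : ∀ x ∈ (k • T : Sylow 2 S), Commute x t := by
      intro x hx
      have h1 := hzc _ (mem_smul_sylow.1 hx)
      rw [← hk]
      have h2 : k⁻¹ * x * k * z = z * (k⁻¹ * x * k) := h1
      calc x * (k * z * k⁻¹) = k * (k⁻¹ * x * k * z) * k⁻¹ := by group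
        _ = k * (z * (k⁻¹ * x * k)) * k⁻¹ := by rw [h2]
        _ = k * z * k⁻¹ * x := by group
    have hM1 : ((k • T : Sylow 2 S) : Subgroup S) ≤ M := by
      intro x hx
      apply hC t htM ht2
      rw [Subgroup.mem_centralizer_singleton_iff]
      exact hT' x hx
    have hM2 : ((g⁻¹ • (k • T) : Sylow 2 S) : Subgroup S) ≤ M := by
      intro x hx
      have ht'2 : orderOf t' = 2 := by rw [← ht2, ← ht'', orderOf_conj]
      apply hC t' ht'M ht'2
      rw [Subgroup.mem_centralizer_singleton_iff]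
      have h1 : g⁻¹⁻¹ * x * g⁻¹ ∈ (k • T : Sylow 2 S) := mem_smul_sylow.1 hx
      have h2 := hT' _ h1
      have h3 : g⁻¹⁻¹ * x * g⁻¹ * t = t * (g⁻¹⁻¹ * x * g⁻¹) := h2
      rw [← ht''] at h3
      have h4 : g * (x * t') * g⁻¹ = g * (t' * x) * g⁻¹ := by
        calc g * (x * t') * g⁻¹ = g⁻¹⁻¹ * x * g⁻¹ * (g * t' * g⁻¹) := by group
          _ = _ := h3
          _ = _ := by group
      exact mul_left_cancel (mul_right_cancel h4)
    obtain ⟨m, hm, hm'⟩ := conj_in X _ hM1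
    obtain ⟨n, hn, hn'⟩ := conj_in X _ hM2
    -- g⁻¹ m normalizes up to n
    have h5 : n⁻¹ * g⁻¹ * m ∈ Subgroup.normalizer (((X : Subgroup M).map M.subtype : Subgroup S) : Set S) := by
      rw [Subgroup.mem_normalizer_iff]
      intro y
      have h6 := hm' (m * y * m⁻¹)
      have h7 := hn' (g⁻¹ * (m * y * m⁻¹) * g)
      have e1 : m⁻¹ * (m * y * m⁻¹) * m = y := by group
      have e2 : n⁻¹ * (g⁻¹ * (m * y * m⁻¹) * g) * n = n⁻¹ * g⁻¹ * m * y * (n⁻¹ * g⁻¹ * m)⁻¹ := by group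
      rw [e1] at h6
      rw [e2] at h7
      rw [← h6, ← h7]
      have h8 : g⁻¹ * (m * y * m⁻¹) * g ∈ (g⁻¹ • (k • T) : Sylow 2 S) ↔ m * y * m⁻¹ ∈ (k • T : Sylow 2 S) := by
        rw [mem_smul_sylow]
        have : g⁻¹⁻¹ * (g⁻¹ * (m * y * m⁻¹) * g) * g⁻¹ = m * y * m⁻¹ := by group
        rw [this]
      exact h8.symm
    have h9 := hN h5
    have h10 : g⁻¹ ∈ M := by
      have := M.mul_mem (M.mul_mem hn h9) (M.inv_mem hm)
      have e : n * (n⁻¹ * g⁻¹ * m) * m⁻¹ = g⁻¹ := by group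
      rwa [e] at this
    exact hg ((M.inv_mem_iff).1 h10)


/-- Let M be a subgroup of even order of a finite group S such that M contains the centralizer in S of each of its involutions and the normal core of M in S has odd order. Then all involutions of S are conjugate. If moreover N_S(X) ≤ M for a Sylow 2-subgroup X of M and I is an involution in the centre of X, then all involutions of M are conjugate in M and M = M₀ C_M(I) for some subgroup M₀ of M of odd order. -/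
theorem result {S : Type*} [Group S] [Finite S] (M : Subgroup S) (hM : Even (Nat.card M))
    (hC : ∀ i ∈ M, orderOf i = 2 → Subgroup.centralizer ({i} : Set S) ≤ M) (hcore : Odd (Nat.card M.normalCore)) :
    (∀ x y : S, orderOf x = 2 → orderOf y = 2 → IsConj x y) ∧
      ∀ (X : Sylow 2 M) (I : M), I ∈ (Subgroup.center ↥(X : Subgroup ↥M)).map (X : Subgroup ↥M).subtype → orderOf I = 2 →
        Subgroup.normalizer (((X : Subgroup M).map M.subtype : Subgroup S) : Set S) ≤ M →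
        (∀ x y : M, orderOf x = 2 → orderOf y = 2 → IsConj x y) ∧
          ∃ M₀ : Subgroup M, Odd (Nat.card M₀) ∧
            ∀ m : M, ∃ a ∈ M₀, ∃ c ∈ Subgroup.centralizer ({I} : Set M), m = a * c := by
  haveI : Fact (Nat.Prime 2) := ⟨Nat.prime_two⟩
  refine ⟨fun x y hx hy => all_conj hM hC hcore x y hx hy, fun X I _ hI2 hN => ?_⟩
  have hS := strongly hM hC hcore X hN
  obtain ⟨u, hu2, hu⟩ := exists_out hM hcore
  refine ⟨fun x y hx hy => ?_, ?_⟩
  · obtain ⟨d, hd, hd'⟩ := CfsgLib.StrongH12.conj_transitive hS hu2 hu (s := (x : S)) (t := (y : S))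
      (by rw [Subgroup.orderOf_coe]; exact hx) x.2 (by rw [Subgroup.orderOf_coe]; exact hy) y.2
    exact isConj_iff.2 ⟨⟨d, (Subgroup.mem_inf.1 hd).1⟩, Subtype.ext hd'⟩
  · refine ⟨(M ⊓ M.map (MulAut.conj u).toMonoidHom).subgroupOf M, ?_, ?_⟩
    · rw [Nat.card_congr (Subgroup.subgroupOfEquivOfLe (inf_le_left : M ⊓ M.map (MulAut.conj u).toMonoidHom ≤ M)).toEquiv]
      exact hS.2.2 u hu
    · intro m
      obtain ⟨d, hd, hd'⟩ := CfsgLib.StrongH12.conj_transitive hS hu2 hu (s := (I : S)) (t := ((m * I * m⁻¹ : M) : S))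
        (by rw [Subgroup.orderOf_coe]; exact hI2) I.2 (by rw [Subgroup.orderOf_coe, CfsgLib.Invol.orderOf_conj]; exact hI2) (m * I * m⁻¹).2
      have hdM : d ∈ M := (Subgroup.mem_inf.1 hd).1
      refine ⟨⟨d, hdM⟩, Subgroup.mem_subgroupOf.2 hd, (⟨d, hdM⟩ : M)⁻¹ * m, ?_, by group⟩
      rw [Subgroup.mem_centralizer_singleton_iff]
      have h1 : (⟨d, hdM⟩ : M) * I * (⟨d, hdM⟩ : M)⁻¹ = m * I * m⁻¹ := Subtype.ext hd'
      calc (⟨d, hdM⟩ : M)⁻¹ * m * I = (⟨d, hdM⟩ : M)⁻¹ * (m * I * m⁻¹) * m := by group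
        _ = (⟨d, hdM⟩ : M)⁻¹ * ((⟨d, hdM⟩ : M) * I * (⟨d, hdM⟩ : M)⁻¹) * m := by rw [h1]
        _ = _ := by group

end Cfsg.Agent.S1905
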