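import Cfsg.Statements.S1939
import Cfsg.Agent.LibFus9

set_option autoImplicit false
open Cfsg

namespace Cfsg.Agent.S1939

open CfsgLib.BGPi CfsgLib.Fus9
open scoped CfsgLib.BGPi

/-- Let S be a Sylow p-subgroup of the finite group G and a an element of S that is the only G-conjugate of a lying in S. Then every power of a has the same property: for every n, the only G-conjugate of a^n lying in S is a^n. -/
theorem result {G : Type*} [Group G] [Finite G] {p : ℕ} [Fact p.Prime] (S : Sylow p G) (a : G)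
    (haS : a ∈ (S : Subgroup G)) (hwc : ∀ g : G, g * a * g⁻¹ ∈ (S : Subgroup G) → g * a * g⁻¹ = a) (n : ℕ) :
    ∀ g : G, g * a ^ n * g⁻¹ ∈ (S : Subgroup G) → g * a ^ n * g⁻¹ = a ^ n := by
  intro g hg
  have hcen : ∀ s ∈ (S : Subgroup G), s * a = a * s := by
    intro s hs
    have h1 := hwc s (Subgroup.mul_mem _ (Subgroup.mul_mem _ hs haS) (Subgroup.inv_mem _ hs))
    calc s * a = (s * a * s⁻¹) * s := by group
      _ = a * s := by rw [h1]
  set b := g * a ^ n * g⁻¹ with hb
  have hap : IsPGroup p (Subgroup.zpowers a) := zpowers_isPGroup' S.2 haS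
  have hgap : IsPGroup p (Subgroup.zpowers (g * a * g⁻¹)) := zpowers_conj_isPGroup hap g
  have h1 : a ∈ Subgroup.centralizer ({b} : Set G) := by
    rw [Subgroup.mem_centralizer_singleton_iff]
    exact (hcen b hg).symm
  have h2 : g * a * g⁻¹ ∈ Subgroup.centralizer ({b} : Set G) := by
    rw [Subgroup.mem_centralizer_singleton_iff, hb]
    have : a * a ^ n = a ^ n * a := by rw [← pow_succ, ← pow_succ']
    calc g * a * g⁻¹ * (g * a ^ n * g⁻¹) = g * (a * a ^ n) * g⁻¹ := by group
      _ = g * (a ^ n * a) * g⁻¹ := by rw [this]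
      _ = _ := by group
  obtain ⟨h, hh, T, hT, haT, hgT⟩ := syl_mul_subj (H := Subgroup.centralizer {b}) hgap hap
      (by simpa using h2) (by simpa using h1)
  obtain ⟨k, hk⟩ := sylow_subj S (hall_isPGroup hT)
  have h3 : k * a * k⁻¹ = a := hwc k (hk (conj_mem_cj (haT (Subgroup.mem_zpowers a))))
  have h4 : (k * h * g) * a * (k * h * g)⁻¹ = a := by
    apply hwc
    have h5 : h * (g * a * g⁻¹) * h⁻¹ ∈ T := hgT (conj_mem_cj (Subgroup.mem_zpowers _))
    have h6 := hk (conj_mem_cj h5 : k * (h * (g * a * g⁻¹) * h⁻¹) * k⁻¹ ∈ _)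
    have e : (k * h * g) * a * (k * h * g)⁻¹ = k * (h * (g * a * g⁻¹) * h⁻¹) * k⁻¹ := by group
    rw [e]; exact h6
  have h5 : (h * g) * a * (h * g)⁻¹ = a := by
    calc (h * g) * a * (h * g)⁻¹ = k⁻¹ * ((k * h * g) * a * (k * h * g)⁻¹) * k := by group
      _ = k⁻¹ * a * k := by rw [h4]
      _ = k⁻¹ * (k * a * k⁻¹) * k := by rw [h3]
      _ = a := by group
  have h6 : (h * g) * a ^ n * (h * g)⁻¹ = a ^ n := by
    have : (h * g) * a ^ n * (h * g)⁻¹ = ((h * g) * a * (h * g)⁻¹) ^ n := by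
      rw [conj_pow]
    rw [this, h5]
  have h7 : h * b = b * h := Subgroup.mem_centralizer_singleton_iff.1 hh
  calc b = h * b * h⁻¹ := by rw [h7]; group
    _ = (h * g) * a ^ n * (h * g)⁻¹ := by rw [hb]; group
    _ = a ^ n := h6

end Cfsg.Agent.S1939
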