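import Cfsg.Statements.S1940
import Mathlib

set_option autoImplicit false
open Cfsg

namespace Cfsg.Agent.S1940

/-- Let the finite group L act by automorphisms on the finite abelian group M, and let N be an L-invariant subgroup of M such that M/N is a p-group on which L acts trivially (every l • m lies in the coset mN). If every element of M is a product of an element of N and an element fixed by a Sylow p-subgroup T of L, then every element of M is a product of an element of N and an element fixed by all of L. -/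
theorem result {L : Type*} [Group L] [Finite L] {M : Type*} [CommGroup M] [Finite M] [MulDistribMulAction L M]
    {p : ℕ} [Fact p.Prime] (N : Subgroup M) (hN : ∀ (l : L) (m : M), m ∈ N → l • m ∈ N)
    (hquot : IsPGroup p (M ⧸ N)) (htriv : ∀ (l : L) (m : M), (l • m) * m⁻¹ ∈ N) (T : Sylow p L)
    (hT : ∀ m : M, ∃ n ∈ N, ∃ c : M, (∀ t ∈ (T : Subgroup L), t • c = c) ∧ m = n * c) :
    ∀ m : M, ∃ n ∈ N, ∃ c : M, (∀ l : L, l • c = c) ∧ m = n * c := by
  classical
  letI : Fintype (L ⧸ (T : Subgroup L)) := Fintype.ofFinite _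
  intro m
  obtain ⟨n, hn, c, hc, rfl⟩ := hT m
  set Tr : M := ∏ q : L ⧸ (T : Subgroup L), q.out • c with hTr
  have hout : ∀ (l : L) (q : L ⧸ (T : Subgroup L)), l • (q.out • c) = (l • q).out • c := by
    intro l q
    obtain ⟨t, ht⟩ := QuotientGroup.mk_out_eq_mul (T : Subgroup L) (l * q.out)
    have e : (l • q : L ⧸ (T : Subgroup L)) = QuotientGroup.mk (l * q.out) := by
      conv_lhs => rw [← q.out_eq']
      rfl
    rw [e, ht, mul_smul, mul_smul, hc t t.2]
  have hfix : ∀ l : L, l • Tr = Tr := by
    intro l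
    rw [hTr, Finset.smul_prod']
    simp_rw [hout l]
    exact Fintype.prod_equiv (MulAction.toPerm l) _ _ (fun q => rfl)
  have hmk : (QuotientGroup.mk Tr : M ⧸ N) = (QuotientGroup.mk c) ^ (T : Subgroup L).index := by
    have h1 : (QuotientGroup.mk Tr : M ⧸ N) =
        ∏ q : L ⧸ (T : Subgroup L), (QuotientGroup.mk (q.out • c) : M ⧸ N) := by
      rw [hTr]; exact map_prod (QuotientGroup.mk' N) _ _
    have h2 : ∀ q : L ⧸ (T : Subgroup L), (QuotientGroup.mk (q.out • c) : M ⧸ N) = QuotientGroup.mk c := by
      intro q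
      rw [eq_comm, QuotientGroup.eq]
      have := htriv q.out c
      rwa [mul_comm] at this
    rw [h1]
    simp_rw [h2]
    rw [Finset.prod_const, Finset.card_univ, Subgroup.index, Nat.card_eq_fintype_card]
  obtain ⟨k, hk⟩ := (IsPGroup.iff_orderOf.1 hquot) (QuotientGroup.mk c)
  have hcop : ((T : Subgroup L).index).Coprime (orderOf (QuotientGroup.mk c : M ⧸ N)) := by
    rw [hk]
    apply Nat.Coprime.pow_right
    exact ((Nat.Prime.coprime_iff_not_dvd Fact.out).2 T.not_dvd_index).symm
  obtain ⟨j, hj⟩ := exists_pow_eq_self_of_coprime hcop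
  refine ⟨n * (c * (Tr ^ j)⁻¹), ?_, Tr ^ j, fun l => ?_, ?_⟩
  · refine N.mul_mem hn ?_
    have : (QuotientGroup.mk (Tr ^ j) : M ⧸ N) = QuotientGroup.mk c := by
      rw [QuotientGroup.mk_pow, hmk, hj]
    rw [QuotientGroup.eq] at this
    rwa [mul_comm]
  · rw [smul_pow', hfix]
  · group

end Cfsg.Agent.S1940
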