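import Cfsg.Statements.S1941
import Mathlib
import Cfsg.Agent.LibBenderMax
import Cfsg.Agent.LibPQ2

set_option autoImplicit false
open Cfsg

namespace Cfsg.Agent.S1941

/-- Let G be a finite group with no nontrivial normal subgroup of order prime to p, T a Sylow p-subgroup of G and E(G) the layer of G (the subgroup generated by its components). An automorphism of G of p-power order that fixes T and E(G) elementwise is inner. -/
theorem result {G : Type*} [Group G] [Finite G] {p : ℕ} [Fact p.Prime] (hcore : Cfsg.pPrimeCore p G = ⊥)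
    (T : Sylow p G) (α : MulAut G) (hα : ∃ j : ℕ, orderOf α = p ^ j) (hfixT : ∀ x ∈ (T : Subgroup G), α x = x)
    (hfixE : ∀ x ∈ Cfsg.layer G, α x = x) : ∃ g : G, ∀ x : G, α x = g * x * g⁻¹ := by
  classical
  haveI := Fintype.ofFinite G
  set Fs := Cfsg.generalizedFittingSubgroup G with hFs
  set Z := Subgroup.centralizer (Fs : Set G) with hZ
  haveI hFn : Fs.Normal := by rw [hFs]; infer_instance
  haveI hZn : Z.Normal := by rw [hZ]; infer_instance
  have hZF : Z ≤ Cfsg.fittingSubgroup G := CfsgLib.BenderMax.centralizer_gfitting_le_fitting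
  have hFp : Cfsg.fittingSubgroup G = Cfsg.pCore p G := CfsgLib.PQ2.fitting_eq_pCore_of hcore
  have hOT : Cfsg.pCore p G ≤ (T : Subgroup G) := CfsgLib.Cores.pCore_le_sylow T
  have hZT : Z ≤ (T : Subgroup G) := hZF.trans (hFp.le.trans hOT)
  have hFfix : ∀ x ∈ Fs, α x = x := by
    intro x hx
    have h1 : Fs ≤ MonoidHom.eqLocus α.toMonoidHom (MonoidHom.id G) := by
      rw [hFs]
      refine sup_le ?_ ?_
      · intro y hy; exact hfixE y hy
      · rw [hFp]; intro y hy; exact hfixT y (hOT hy)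
    exact h1 hx
  have hZFs : Z ≤ Fs := hZF.trans le_sup_right
  -- the cocycle
  have hf : ∀ g : G, g⁻¹ * α g ∈ Z := by
    intro g
    rw [hZ, Subgroup.mem_centralizer_iff]
    intro x hx
    have h1 := hFfix _ (hFn.conj_mem x hx g)
    rw [map_mul, map_mul, map_inv, hFfix x hx] at h1
    calc x * (g⁻¹ * α g) = g⁻¹ * (g * x * g⁻¹) * α g := by group
      _ = g⁻¹ * (α g * x * (α g)⁻¹) * α g := by rw [h1]
      _ = g⁻¹ * α g * x := by group
  haveI hZc : IsMulCommutative Z := ⟨⟨fun a b => Subtype.ext (Subgroup.mem_centralizer_iff.1 b.2 a (hZFs a.2))⟩⟩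
  letI : CommGroup Z := { (inferInstance : Group Z) with mul_comm := fun a b => hZc.is_comm.comm a b }
  let f : G → Z := fun g => ⟨g⁻¹ * α g, hf g⟩
  have hfT : ∀ (t : G), t ∈ (T : Subgroup G) → ∀ g : G, f (t * g) = f g := by
    intro t ht g
    apply Subtype.ext
    show (t * g)⁻¹ * α (t * g) = g⁻¹ * α g
    rw [map_mul, hfixT t ht]; group
  let F : G ⧸ (T : Subgroup G) → Z := Quotient.lift (fun g => f g⁻¹) (by
    intro a b hab
    have h1 : a⁻¹ * b ∈ (T : Subgroup G) := QuotientGroup.leftRel_apply.1 hab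
    show f a⁻¹ = f b⁻¹
    have h2 : a⁻¹ = (a⁻¹ * b) * b⁻¹ := by group
    rw [h2, hfT _ h1])
  have hFmk : ∀ g : G, F (g : G ⧸ (T : Subgroup G)) = f g⁻¹ := fun g => rfl
  let z : Z := ∏ q : G ⧸ (T : Subgroup G), F q
  set n := Nat.card (G ⧸ (T : Subgroup G)) with hn
  have hnp : ¬ p ∣ n := by
    have : n = (T : Subgroup G).index := rfl
    rw [this]; exact T.not_dvd_index
  let c : G → MulAut Z := fun h => MulAut.conjNormal h⁻¹
  have hc : ∀ (h : G) (y : Z), ((c h y : Z) : G) = h⁻¹ * y * h := by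
    intro h y
    show ((MulAut.conjNormal h⁻¹ y : Z) : G) = _
    rw [MulAut.conjNormal_apply, inv_inv]
  have hcoc : ∀ g h : G, f (g * h) = c h (f g) * f h := by
    intro g h
    apply Subtype.ext
    rw [Subgroup.coe_mul, hc]
    show (g * h)⁻¹ * α (g * h) = h⁻¹ * (g⁻¹ * α g) * h * (h⁻¹ * α h)
    rw [map_mul]; group
  have hz : ∀ h : G, z = c h z * f h ^ n := by
    intro h
    have h1 : z = ∏ q : G ⧸ (T : Subgroup G), F (h⁻¹ • q) :=
      (Equiv.prod_comp (MulAction.toPerm h⁻¹) F).symm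
    have h2 : ∀ q : G ⧸ (T : Subgroup G), F (h⁻¹ • q) = c h (F q) * f h := by
      intro q
      induction q using QuotientGroup.induction_on with
      | H g =>
        show f (h⁻¹ * g)⁻¹ = c h (f g⁻¹) * f h
        rw [← hcoc, mul_inv_rev, inv_inv]
    rw [Finset.prod_congr rfl (fun q _ => h2 q), Finset.prod_mul_distrib, Finset.prod_const, ← map_prod] at h1
    rw [hn, Nat.card_eq_fintype_card, ← Finset.card_univ]
    exact h1
  -- the `n`-th root
  have hZp : IsPGroup p Z := T.isPGroup'.to_le hZT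
  have hcop : (Nat.card Z).Coprime n := by
    obtain ⟨k, hk⟩ := IsPGroup.iff_card.1 hZp
    rw [hk]
    exact Nat.Coprime.pow_left k (((Nat.Prime.coprime_iff_not_dvd (Fact.out : p.Prime)).2 hnp))
  let e := powCoprime hcop
  obtain ⟨u, hu⟩ := e.surjective z
  have hu' : u ^ n = z := hu
  refine ⟨(u : G)⁻¹, fun h => ?_⟩
  have h3 : f h = (c h u)⁻¹ * u := by
    apply e.injective
    show (f h) ^ n = ((c h u)⁻¹ * u) ^ n
    rw [mul_pow, inv_pow, ← map_pow, hu']
    rw [eq_inv_mul_iff_mul_eq]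
    exact (hz h).symm
  have h4 := congrArg Subtype.val h3
  rw [Subgroup.coe_mul, Subgroup.coe_inv, hc] at h4
  have h5 : h⁻¹ * α h = (h⁻¹ * u * h)⁻¹ * u := h4
  calc α h = h * (h⁻¹ * α h) := by group
    _ = h * ((h⁻¹ * u * h)⁻¹ * u) := by rw [h5]
    _ = (u : G)⁻¹ * h * (u : G)⁻¹⁻¹ := by group

end Cfsg.Agent.S1941
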