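import Cfsg.Statements.S1944
import Mathlib
import Cfsg.Agent.LibCtH12d

set_option autoImplicit false
open Cfsg

namespace Cfsg.Agent.S1944

/-- Let S be a Sylow p-subgroup of the finite group G and suppose that the centre Z(S) lies in O_{p',p}(G). The elements of S each of which is its only G-conjugate in S form a subgroup W of Z(S); W is then a direct factor of Z(S): there is a subgroup K of Z(S) with W ∩ K = 1 and WK = Z(S). -/
theorem result {G : Type*} [Group G] [Finite G] {p : ℕ} [Fact p.Prime] (S : Sylow p G)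
    (hZ : ((S : Subgroup G) ⊓ Subgroup.centralizer ((S : Subgroup G) : Set G)) ≤ Cfsg.pPrimePCore p G) :
    ∃ W K : Subgroup G, (∀ x : G, x ∈ W ↔ (x ∈ (S : Subgroup G) ∧ ∀ g : G, g * x * g⁻¹ ∈ (S : Subgroup G) → g * x * g⁻¹ = x)) ∧
      K ≤ ((S : Subgroup G) ⊓ Subgroup.centralizer ((S : Subgroup G) : Set G)) ∧ W ⊓ K = ⊥ ∧ W ⊔ K = ((S : Subgroup G) ⊓ Subgroup.centralizer ((S : Subgroup G) : Set G)) := by
  set H := (S : Subgroup G) ⊓ pPrimePCore p G with hH
  set N := Subgroup.normalizer (H : Set G) with hN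
  set Z := (S : Subgroup G) ⊓ Subgroup.centralizer ((S : Subgroup G) : Set G) with hZd
  have hHp : IsPGroup p H := S.isPGroup'.to_le inf_le_left
  have hSN : (S : Subgroup G) ≤ N := by
    apply CfsgLib.LE.le_normalizer_inf Subgroup.le_normalizer
    rw [Subgroup.normalizer_eq_top_iff.2 inferInstance]; exact le_top
  set V := H ⊓ Subgroup.centralizer (H : Set G) with hV
  have hVc : ∀ a ∈ V, ∀ b ∈ V, a * b = b * a := fun a ha b hb =>
    (Subgroup.mem_centralizer_iff.1 (Subgroup.mem_inf.1 hb).2 a (Subgroup.mem_inf.1 ha).1)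
  haveI : IsMulCommutative V := ⟨⟨fun a b => Subtype.ext (hVc a a.2 b b.2)⟩⟩
  letI : CommGroup V := IsMulCommutative.instCommGroup
  have hNV : N ≤ Subgroup.normalizer (V : Set G) :=
    CfsgLib.LE.le_normalizer_inf le_rfl (CfsgLib.LE.le_normalizer_centralizer le_rfl)
  let φ : N →* MulAut V := (Subgroup.normalizerMonoidHom V).comp (Subgroup.inclusion hNV)
  have hφ : ∀ (n : N) (v : V), ((φ n v : V) : G) = n * v * (n : G)⁻¹ := fun n v => rfl
  have hVp : IsPGroup p V := hHp.to_le inf_le_left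
  have hcop : ((S : Subgroup G).subgroupOf N).index.Coprime (Nat.card V) := by
    obtain ⟨k, hk⟩ := IsPGroup.iff_card.1 hVp
    rw [hk]
    apply Nat.Coprime.pow_right
    apply Nat.Coprime.symm
    rw [Nat.Prime.coprime_iff_not_dvd Fact.out]
    intro h
    exact S.not_dvd_index (h.trans (Subgroup.relIndex_dvd_index_of_le hSN))
  obtain ⟨K, hK1, hK2, hK3⟩ := CfsgLib.CtH12.direct_factor φ ((S : Subgroup G).subgroupOf N) hcop
  have hZV : Z ≤ V := by
    intro x hx
    have hx1 := Subgroup.mem_inf.1 hx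
    exact Subgroup.mem_inf.2 ⟨Subgroup.mem_inf.2 ⟨hx1.1, hZ hx⟩,
      Subgroup.mem_centralizer_iff.2 fun y hy => Subgroup.mem_centralizer_iff.1 hx1.2 y (Subgroup.mem_inf.1 hy).1⟩
  refine ⟨Z ⊓ Subgroup.centralizer (N : Set G), K.map V.subtype, ?_, ?_, ?_, ?_⟩
  · intro x
    constructor
    · intro hx
      have hx1 := Subgroup.mem_inf.1 hx
      have hxS := (Subgroup.mem_inf.1 hx1.1).1
      refine ⟨hxS, fun g hg => ?_⟩
      obtain ⟨n, hn, hn'⟩ := CfsgLib.CtH12.partb S hxS hg (isConj_iff.2 ⟨g, rfl⟩)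
      rw [← hn', Subgroup.mem_centralizer_iff.1 hx1.2 n hn, mul_inv_cancel_right]
    · rintro ⟨hxS, hx⟩
      have hxZ : x ∈ Z := by
        refine Subgroup.mem_inf.2 ⟨hxS, Subgroup.mem_centralizer_iff.2 fun s hs => ?_⟩
        have := hx s (mul_mem (mul_mem hs hxS) (inv_mem hs))
        exact mul_inv_eq_iff_eq_mul.1 this
      refine Subgroup.mem_inf.2 ⟨hxZ, Subgroup.mem_centralizer_iff.2 fun n hn => ?_⟩
      have hxH : x ∈ H := (Subgroup.mem_inf.1 (hZV hxZ)).1
      have h1 : n * x * n⁻¹ ∈ H := (Subgroup.mem_normalizer_iff.1 hn x).1 hxH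
      exact mul_inv_eq_iff_eq_mul.1 (hx n (Subgroup.mem_inf.1 h1).1)
  · rintro _ ⟨v, hv, rfl⟩
    refine Subgroup.mem_inf.2 ⟨(Subgroup.mem_inf.1 (Subgroup.mem_inf.1 v.2).1).1, Subgroup.mem_centralizer_iff.2 fun s hs => ?_⟩
    have h1 := congrArg (Subtype.val) (hK1 v hv ⟨s, hSN hs⟩ (Subgroup.mem_subgroupOf.2 hs))
    rw [hφ] at h1
    exact mul_inv_eq_iff_eq_mul.1 h1
  · rw [eq_bot_iff]
    rintro x ⟨hx, v, hv, rfl⟩
    have h1 : v = 1 := by
      apply hK2 v hv
      intro n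
      apply Subtype.ext
      rw [hφ]
      have := Subgroup.mem_centralizer_iff.1 (Subgroup.mem_inf.1 hx).2 (n : G) n.2
      exact mul_inv_eq_iff_eq_mul.2 this
    rw [h1]; exact Subgroup.mem_bot.2 rfl
  · apply le_antisymm
    · refine sup_le inf_le_left ?_
      rintro _ ⟨v, hv, rfl⟩
      refine Subgroup.mem_inf.2 ⟨(Subgroup.mem_inf.1 (Subgroup.mem_inf.1 v.2).1).1, Subgroup.mem_centralizer_iff.2 fun s hs => ?_⟩
      have h1 := congrArg (Subtype.val) (hK1 v hv ⟨s, hSN hs⟩ (Subgroup.mem_subgroupOf.2 hs))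
      rw [hφ] at h1
      exact mul_inv_eq_iff_eq_mul.1 h1
    · intro x hx
      obtain ⟨w, hw, k, hk, e⟩ := hK3 ⟨x, hZV hx⟩ (by
        intro s hs
        apply Subtype.ext
        rw [hφ]
        have := Subgroup.mem_centralizer_iff.1 (Subgroup.mem_inf.1 hx).2 (s : G) (Subgroup.mem_subgroupOf.1 hs)
        exact mul_inv_eq_iff_eq_mul.2 this)
      have e' : x = (w : G) * k := congrArg Subtype.val e
      rw [e']
      refine mul_mem (Subgroup.mem_sup_left ?_) (Subgroup.mem_sup_right (Subgroup.mem_map_of_mem _ hk))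
      have hwN : ∀ n ∈ N, n * (w : G) = w * n := by
        intro n hn
        have h1 := congrArg Subtype.val (hw ⟨n, hn⟩)
        rw [hφ] at h1
        exact mul_inv_eq_iff_eq_mul.1 h1
      exact Subgroup.mem_inf.2 ⟨Subgroup.mem_inf.2 ⟨(Subgroup.mem_inf.1 (Subgroup.mem_inf.1 w.2).1).1,
        Subgroup.mem_centralizer_iff.2 fun s hs => hwN s (hSN hs)⟩, Subgroup.mem_centralizer_iff.2 hwN⟩

end Cfsg.Agent.S1944
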