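import Mathlib
-- Template for statement S1952 (row 1952; see /opt/grader/pristine/manifest.json for weights).
-- Copy to Cfsg/Agent/S1952.lean and replace the sorry. The statement below is byte-identical to the frozen
-- statement Cfsg.CfsgFrozen.S1952 (Cfsg/Statements/S1952.lean; the theorem Cfsg.tech8_wreath_quotient_of_nontrivial_norm_in_index_p_elementary_abelian);
-- the grader kernel-checks Cfsg.Agent.S1952.result against that frozen type. Keep the theorem IN THIS FILE
-- (a `result` declared elsewhere and merely imported here is not credited); helpers may live anywhere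
-- under Cfsg/Agent/.
import Cfsg.Statements.S1952
-- import your own Cfsg.Agent.* helpers here

set_option autoImplicit false
open Cfsg

namespace Cfsg.Agent.S1952

theorem pv (p : ℕ) [hp : Fact p.Prime] : padicValNat p (p ^ 2).factorial = p + 1 := by
  rw [pow_two, padicValNat_factorial_mul]
  have h1 : padicValNat p p.factorial = 1 := by
    have := padicValNat_factorial_mul (p := p) 1
    rw [mul_one, Nat.factorial_one, padicValNat.one, zero_add] at this
    exact this
  rw [h1, add_comm]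

theorem geom (p : ℕ) [hp : Fact p.Prime] {R : Type*} [Ring R] [Algebra (ZMod p) R] (Y : R) :
    ∑ i ∈ Finset.range p, Y ^ i = (Y - 1) ^ (p - 1) := by
  have hpoly : (∑ i ∈ Finset.range p, (Polynomial.X : Polynomial (ZMod p)) ^ i) = (Polynomial.X - 1) ^ (p - 1) := by
    have h0 : (Polynomial.X - 1 : Polynomial (ZMod p)) ≠ 0 := Polynomial.X_sub_C_ne_zero 1
    apply mul_right_cancel₀ h0
    rw [geom_sum_mul, ← pow_succ]
    have h1 : p - 1 + 1 = p := Nat.sub_add_cancel hp.out.one_le
    rw [h1, sub_pow_char, one_pow]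
  have h2 := congrArg (Polynomial.aeval Y) hpoly
  simpa using h2

theorem ypow_mem {P : Type*} [Group P] {p : ℕ} [Fact p.Prime] (A : Subgroup P) [A.Normal] (hidx : A.index = p) (y : P) : y ^ p ∈ A := by
  have h1 : (QuotientGroup.mk y : P ⧸ A) ^ p = 1 := by
    have h2 : Nat.card (P ⧸ A) = p := hidx
    rw [← h2]
    exact pow_card_eq_one'
  rw [← QuotientGroup.mk_pow] at h1
  exact (QuotientGroup.eq_one_iff _).1 h1

/-- the key estimate, additive version -/
theorem key0 {V : Type*} [AddCommGroup V] [Finite V] {p : ℕ} [hpf : Fact p.Prime] [Module (ZMod p) V] (φ : V →+ V) (hφ : ∀ b, φ^[p] b = b)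
    (M : AddSubgroup V) (hM : ∀ b ∈ M, φ b ∈ M) {k : ℕ} (hk : k ≤ p - 1) (hidx : M.index = p ^ k) (x : V) : ∑ i ∈ Finset.range p, φ^[i] x ∈ M := by
  have hp : p.Prime := hpf.out
  obtain ⟨Y, hY⟩ : ∃ Y : Module.End (ZMod p) V, ∀ a : V, Y a = φ a :=
    ⟨AddMonoidHom.toZModLinearMap p φ, fun a => rfl⟩
  have hYk : ∀ (i : ℕ) (a : V), (Y ^ i) a = φ^[i] a := by
    intro i
    induction i with
    | zero => intro a; rfl
    | succ i ih =>
      intro a
      rw [pow_succ', Module.End.mul_apply, hY, ih, Function.iterate_succ_apply']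
  have hYp : Y ^ p = 1 := by
    apply LinearMap.ext
    intro a
    rw [hYk, hφ]; rfl
  obtain ⟨W, hW⟩ : ∃ W : Submodule (ZMod p) V, ∀ a : V, a ∈ W ↔ a ∈ M :=
    ⟨AddSubgroup.toZModSubmodule p M, fun a => Iff.rfl⟩
  have hYW : W ≤ W.comap Y := by
    intro a ha
    rw [Submodule.mem_comap, hW, hY]
    rw [hW] at ha
    exact hM _ ha
  have hfin : Module.finrank (ZMod p) (V ⧸ W) ≤ p - 1 := by
    have h1 : Nat.card (V ⧸ W) = p ^ Module.finrank (ZMod p) (V ⧸ W) := by
      rw [Module.natCard_eq_pow_finrank (K := ZMod p), Nat.card_zmod]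
    have h4 := Submodule.card_eq_card_quotient_mul_card W
    have h5 := AddSubgroup.card_mul_index M
    have h6 : Nat.card W = Nat.card M := by
      refine Nat.card_congr (Equiv.subtypeEquiv (Equiv.refl V) fun a => ?_)
      exact hW a
    have h8 : 0 < Nat.card M := Nat.card_pos
    rw [h6, ← h5, hidx, h1, mul_comm] at h4
    have h9 : p ^ k = p ^ Module.finrank (ZMod p) (V ⧸ W) := by
      apply Nat.eq_of_mul_eq_mul_right h8
      rw [h4, mul_comm]
    have h10 := Nat.pow_right_injective hp.two_le h9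
    omega
  obtain ⟨Z, hZ⟩ : ∃ Z : Module.End (ZMod p) (V ⧸ W), Z = W.mapQ W Y hYW := ⟨_, rfl⟩
  have hZk : ∀ (i : ℕ) (a : V), (Z ^ i) (W.mkQ a) = W.mkQ ((Y ^ i) a) := by
    intro i
    induction i with
    | zero => intro a; rfl
    | succ i ih =>
      intro a
      rw [pow_succ', pow_succ', Module.End.mul_apply, ih, Module.End.mul_apply, hZ]
      exact Submodule.mapQ_apply W W Y _
  have hZp : (Z - 1) ^ p = 0 := by
    have h1 : (Z - 1) ^ p = (Z - 1) ^ (p - 1) * (Z - 1) := by
      rw [← pow_succ, Nat.sub_add_cancel hp.one_le]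
    rw [h1, ← geom p Z, geom_sum_mul, sub_eq_zero]
    apply LinearMap.ext
    intro a
    obtain ⟨a, rfl⟩ := W.mkQ_surjective a
    rw [hZk, hYp]; rfl
  have hfin2 : Module.finrank (ZMod p) (V ⧸ W) ≤ p := by omega
  have hZ0 : (Z - 1) ^ (p - 1) = 0 := by
    have h1 := Module.End.ker_pow_eq_ker_pow_finrank_of_le (f := Z - 1) (m := p) hfin2
    have h2 := Module.End.ker_pow_eq_ker_pow_finrank_of_le (f := Z - 1) (m := p - 1) hfin
    rw [hZp, LinearMap.ker_zero, ← h2] at h1
    exact LinearMap.ker_eq_top.1 h1.symm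
  have h1 : W.mkQ (((Y - 1) ^ (p - 1)) x) = 0 := by
    rw [← geom p Y, LinearMap.sum_apply, map_sum]
    have h2 : ∀ i ∈ Finset.range p, W.mkQ ((Y ^ i) x) = (Z ^ i) (W.mkQ x) := fun i _ => (hZk i _).symm
    rw [Finset.sum_congr rfl h2, ← LinearMap.sum_apply, geom p Z, hZ0]; rfl
  rw [← geom p Y, LinearMap.sum_apply] at h1
  have h2 : (∑ i ∈ Finset.range p, (Y ^ i) x) ∈ W := (Submodule.Quotient.mk_eq_zero W).1 h1
  rw [hW] at h2
  rw [Finset.sum_congr rfl (fun i _ => (hYk i x).symm)]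
  exact h2

/-- the key estimate, commutative version -/
theorem key' {B : Type*} [CommGroup B] [Finite B] {p : ℕ} [hpf : Fact p.Prime] (hB : ∀ b : B, b ^ p = 1) (φ : B →* B) (hφ : ∀ b, φ^[p] b = b)
    (M : Subgroup B) (hM : ∀ b ∈ M, φ b ∈ M) {k : ℕ} (hk : k ≤ p - 1) (hidx : M.index = p ^ k) (x : B) : ((List.range p).map (fun i => φ^[i] x)).prod ∈ M := by
  have hmod : ∀ a : Additive B, p • a = 0 := by
    intro a
    show (Additive.ofMul (Additive.toMul a ^ p) : Additive B) = 0
    rw [hB]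
    exact ofMul_one
  haveI : Finite (Additive B) := inferInstanceAs (Finite B)
  have h0 := @key0 (Additive B) _ _ p _ (AddCommGroup.zmodModule hmod) (MonoidHom.toAdditive φ) (fun b => hφ b) (Subgroup.toAddSubgroup M) hM k hk hidx (Additive.ofMul x)
  have h3 : ∀ n : ℕ, Additive.toMul (∑ i ∈ Finset.range n, (MonoidHom.toAdditive φ)^[i] (Additive.ofMul x)) = ((List.range n).map (fun i => φ^[i] x)).prod := by
    intro n
    induction n with
    | zero => rfl
    | succ n ih =>
      rw [Finset.sum_range_succ, List.range_succ, List.map_append, List.prod_append, ← ih, toMul_add, List.map_singleton, List.prod_singleton]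
      rfl
  rw [← h3]
  exact h0

theorem key {P : Type*} [Group P] [Finite P] {p : ℕ} [hpf : Fact p.Prime] (A : Subgroup P) [hAn : A.Normal]
    (hA : Cfsg.IsElementaryAbelian p A) (hidx : A.index = p) (x y : P) (hx : x ∈ A) (M : Subgroup P) [hMn : M.Normal] (hMA : M ≤ A) {k : ℕ} (hk : k ≤ p)
    (hM : M.index = p ^ k) : ((List.range p).map (fun i => (y ^ i)⁻¹ * x * y ^ i)).prod ∈ M := by
  have hp : p.Prime := hpf.out
  obtain ⟨c, hc⟩ : ∃ c : A →* A, ∀ a, ((c a : A) : P) = y⁻¹ * a * y := by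
    refine ⟨(MulAut.conjNormal (y⁻¹) : MulAut A).toMonoidHom, fun a => ?_⟩
    show ((MulAut.conjNormal (y⁻¹) a : A) : P) = _
    rw [MulAut.conjNormal_apply, inv_inv]
  have hck : ∀ (i : ℕ) (a : A), ((c^[i] a : A) : P) = (y ^ i)⁻¹ * a * y ^ i := by
    intro i
    induction i with
    | zero => intro a; simp
    | succ i ih =>
      intro a
      rw [Function.iterate_succ_apply', hc, ih, pow_succ]
      group
  have hcp : ∀ a, c^[p] a = a := by
    intro a
    apply Subtype.ext
    rw [hck]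
    have h1 : (⟨y ^ p, ypow_mem A hidx y⟩ : A) * a = a * ⟨y ^ p, ypow_mem A hidx y⟩ := hA.1.is_comm.comm _ _
    have h2 : y ^ p * (a : P) = (a : P) * y ^ p := congrArg Subtype.val h1
    rw [mul_assoc, ← h2, inv_mul_cancel_left]
  have h3 : (M.subgroupOf A).index * p = p ^ k := by
    have := Subgroup.relIndex_mul_index hMA
    rw [hidx, hM] at this
    exact this
  have hk0 : k ≠ 0 := by
    rintro rfl
    rw [pow_zero] at h3
    exact hp.one_lt.ne' (Nat.dvd_one.1 (Dvd.intro_left _ h3))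
  obtain ⟨k', rfl⟩ := Nat.exists_eq_succ_of_ne_zero hk0
  have h4 : (M.subgroupOf A).index = p ^ k' := by
    apply Nat.eq_of_mul_eq_mul_right hp.pos
    rw [h3, pow_succ]
  have h5 : ((List.range p).map (fun i => c^[i] ⟨x, hx⟩)).prod ∈ M.subgroupOf A := by
    letI : CommGroup A := { (inferInstance : Group A) with mul_comm := fun a b => hA.1.is_comm.comm a b }
    refine key' (fun b => Subtype.ext (hA.2 b b.2)) c hcp (M.subgroupOf A) ?_ (by omega : k' ≤ p - 1) h4 ⟨x, hx⟩
    intro b hb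
    rw [Subgroup.mem_subgroupOf, hc]
    have := hMn.conj_mem _ (Subgroup.mem_subgroupOf.1 hb) y⁻¹
    rwa [inv_inv] at this
  rw [Subgroup.mem_subgroupOf] at h5
  have h6 : ((((List.range p).map (fun i => c^[i] ⟨x, hx⟩)).prod : A) : P) = ((List.range p).map (fun i => (y ^ i)⁻¹ * x * y ^ i)).prod := by
    have h7 := map_list_prod A.subtype ((List.range p).map (fun i => c^[i] ⟨x, hx⟩))
    rw [List.map_map] at h7
    rw [← show (A.subtype ((List.range p).map (fun i => c^[i] ⟨x, hx⟩)).prod) = ((((List.range p).map (fun i => c^[i] ⟨x, hx⟩)).prod : A) : P) from rfl, h7]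
    congr 1
    apply List.map_congr_left
    intro i _
    exact hck i ⟨x, hx⟩
  rwa [h6] at h5


/-- Let P be a finite p-group with a normal elementary abelian subgroup A of index p, and let x ∈ A and y ∈ P with y outside A. If the product of the p conjugates y^(-i) x y^i (i = 0, …, p−1) is not the identity, then the wreath product Z_p ≀ Z_p, realised as a Sylow p-subgroup of the symmetric group of degree p², is a homomorphic image of P. -/
theorem result {P : Type*} [Group P] [Finite P] {p : ℕ} [Fact p.Prime] (hP : IsPGroup p P) (A : Subgroup P) [A.Normal]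
    (hA : Cfsg.IsElementaryAbelian p A) (hidx : A.index = p) (x y : P) (hx : x ∈ A) (hy : y ∉ A)
    (hprod : ((List.range p).map (fun i => (y ^ i)⁻¹ * x * y ^ i)).prod ≠ 1) :
    ∃ (Q : Sylow p (Equiv.Perm (Fin (p ^ 2)))) (f : P →* ↥(Q : Subgroup (Equiv.Perm (Fin (p ^ 2))))), Function.Surjective f := by
  classical
  have hpp : p.Prime := Fact.out
  obtain ⟨N, hN⟩ : ∃ N, N = ((List.range p).map (fun i => (y ^ i)⁻¹ * x * y ^ i)).prod := ⟨_, rfl⟩
  rw [← hN] at hprod
  have hyi : ∀ i, (y ^ i)⁻¹ * x * y ^ i ∈ A := by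
    intro i
    have := ‹A.Normal›.conj_mem x hx (y ^ i)⁻¹
    rwa [inv_inv] at this
  have hNA : N ∈ A := by
    rw [hN]
    apply Subgroup.list_prod_mem
    intro z hz
    obtain ⟨i, -, rfl⟩ := List.mem_map.1 hz
    exact hyi i
  have hcomm : ∀ a ∈ A, ∀ b ∈ A, a * b = b * a := fun a ha b hb => congrArg Subtype.val (hA.1.is_comm.comm (⟨a, ha⟩ : A) ⟨b, hb⟩)
  -- a maximal subgroup avoiding the norm
  obtain ⟨H, hH⟩ : ∃ H : Subgroup P, Maximal (fun H => H ≤ A ∧ N ∉ H) H := by
    apply Set.Finite.exists_maximal (Set.toFinite {H : Subgroup P | H ≤ A ∧ N ∉ H})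
    exact ⟨⊥, bot_le, fun h => hprod (Subgroup.mem_bot.1 h)⟩
  have hHA : H ≤ A := hH.prop.1
  have hNH : N ∉ H := hH.prop.2
  have hgen : ∀ a ∈ A, ∃ h ∈ H, ∃ j : ℕ, a = h * N ^ j := by
    intro a ha
    by_cases haH : a ∈ H
    · exact ⟨a, haH, 0, by rw [pow_zero, mul_one]⟩
    have h1 : N ∈ H ⊔ Subgroup.zpowers a := by
      by_contra hcon
      have h2 := hH.le_of_ge (y := H ⊔ Subgroup.zpowers a) ⟨sup_le hHA (by rwa [Subgroup.zpowers_le]), hcon⟩ le_sup_left
      exact haH (h2 (Subgroup.mem_sup_right (Subgroup.mem_zpowers a)))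
    obtain ⟨h, hh, j, hhz⟩ : ∃ h ∈ H, ∃ j : ℤ, h * a ^ j = N := by
      let S : Subgroup P :=
        { carrier := {z | ∃ h ∈ H, ∃ j : ℤ, h * a ^ j = z}
          mul_mem' := by
            rintro _ _ ⟨h, hh, j, rfl⟩ ⟨h', hh', l, rfl⟩
            refine ⟨h * h', H.mul_mem hh hh', j + l, ?_⟩
            rw [zpow_add, mul_assoc h (a ^ j), ← mul_assoc (a ^ j) h', hcomm (a ^ j) (A.zpow_mem ha j) h' (hHA hh')]
            group
          one_mem' := ⟨1, H.one_mem, 0, by rw [zpow_zero, mul_one]⟩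
          inv_mem' := by
            rintro _ ⟨h, hh, j, rfl⟩
            refine ⟨h⁻¹, H.inv_mem hh, -j, ?_⟩
            rw [mul_inv_rev, zpow_neg]
            exact hcomm _ (A.inv_mem (hHA hh)) _ (A.inv_mem (A.zpow_mem ha j)) }
      have hle : H ⊔ Subgroup.zpowers a ≤ S := by
        refine sup_le (fun h hh => ⟨h, hh, 0, by rw [zpow_zero, mul_one]⟩) ?_
        rw [Subgroup.zpowers_le]
        exact ⟨1, H.one_mem, 1, by rw [zpow_one, one_mul]⟩
      exact hle h1
    -- `N = h a ^ j`
    have hj : ¬ (p : ℤ) ∣ j := by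
      rintro ⟨l, rfl⟩
      apply hNH
      rw [← hhz, zpow_mul, zpow_natCast, hA.2 a ha, one_zpow, mul_one]
      exact hh
    have hcop : IsCoprime (p : ℤ) j := (Nat.prime_iff_prime_int.1 hpp).coprime_iff_not_dvd.2 hj
    obtain ⟨u, v, huv⟩ := hcop
    -- `u p + v j = 1`
    have h2 : a = (h ^ v)⁻¹ * N ^ v := by
      have e1 : N ^ v = h ^ v * a ^ (j * v) := by
        rw [← hhz, (show Commute h (a ^ j) from hcomm h (hHA hh) _ (A.zpow_mem ha j)).mul_zpow, zpow_mul]
      have e2 : a ^ (j * v) = a := by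
        have : j * v = 1 - p * u := by linear_combination huv
        rw [this, zpow_sub, zpow_mul, zpow_natCast, hA.2 a ha, one_zpow, inv_one, mul_one, zpow_one]
      rw [e1, e2, inv_mul_cancel_left]
    refine ⟨(h ^ v)⁻¹, H.inv_mem (H.zpow_mem hh v), (v % p).toNat, ?_⟩
    rw [h2]
    congr 1
    have h3 : (((v % p).toNat : ℕ) : ℤ) = v % p := Int.toNat_of_nonneg (Int.emod_nonneg _ (by exact_mod_cast hpp.ne_zero))
    rw [← zpow_natCast N, h3]
    conv_lhs => rw [← Int.emod_add_mul_ediv v p]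
    rw [zpow_add, zpow_mul, zpow_natCast, hA.2 N hNA, one_zpow, mul_one]
  -- the index of `H` in `A`
  have hHidx : (H.subgroupOf A).index = p := by
    haveI hHn : (H.subgroupOf A).Normal := by
      constructor
      intro a ha g
      rw [Subgroup.mem_subgroupOf] at ha ⊢
      have : ((g * a * g⁻¹ : A) : P) = a := by
        show (g : P) * a * (g : P)⁻¹ = a
        rw [hcomm g g.2 a a.2, mul_inv_cancel_right]
      rw [this]; exact ha
    have h1 : Nat.card (A ⧸ H.subgroupOf A) = p := by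
      have h2 : ∀ q : A ⧸ H.subgroupOf A, q ∈ Subgroup.zpowers (QuotientGroup.mk (⟨N, hNA⟩ : A) : A ⧸ H.subgroupOf A) := by
        intro q
        obtain ⟨⟨a, ha⟩, rfl⟩ := QuotientGroup.mk_surjective q
        obtain ⟨h, hh, j, hj⟩ := hgen a ha
        refine ⟨j, ?_⟩
        show (QuotientGroup.mk (⟨N, hNA⟩ : A) : A ⧸ H.subgroupOf A) ^ (j : ℤ) = QuotientGroup.mk ⟨a, ha⟩
        rw [zpow_natCast, ← QuotientGroup.mk_pow, QuotientGroup.eq, Subgroup.mem_subgroupOf]
        show (N ^ j)⁻¹ * a ∈ H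
        rw [hj, hcomm h (hHA hh) (N ^ j) (A.pow_mem hNA j), inv_mul_cancel_left]
        exact hh
      have h3 : orderOf (QuotientGroup.mk (⟨N, hNA⟩ : A) : A ⧸ H.subgroupOf A) = p := by
        apply orderOf_eq_prime
        · rw [← QuotientGroup.mk_pow]
          have : (⟨N, hNA⟩ : A) ^ p = 1 := Subtype.ext (hA.2 N hNA)
          rw [this]; rfl
        · intro h
          exact hNH (Subgroup.mem_subgroupOf.1 ((QuotientGroup.eq_one_iff _).1 h))
      rw [← h3, ← Nat.card_zpowers]
      symm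
      refine Nat.card_congr (Equiv.ofBijective Subtype.val ⟨Subtype.val_injective, fun q => ⟨⟨q, h2 q⟩, rfl⟩⟩)
    exact h1
  have hidxH : H.index = p ^ 2 := by
    rw [← Subgroup.relIndex_mul_index hHA, hidx, pow_two]
    show (H.subgroupOf A).index * p = p * p
    rw [hHidx]
  -- the action on cosets
  have hcardX : Nat.card (P ⧸ H) = Nat.card (Fin (p ^ 2)) := by
    rw [Nat.card_eq_fintype_card (α := Fin _), Fintype.card_fin]; exact hidxH
  obtain ⟨e⟩ := Finite.card_eq.1 hcardX
  obtain ⟨f₀, hf₀⟩ : ∃ f₀ : P →* Equiv.Perm (Fin (p ^ 2)), f₀ = (e.permCongrHom.toMonoidHom).comp (MulAction.toPermHom P (P ⧸ H)) := ⟨_, rfl⟩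
  have hker : f₀.ker = H.normalCore := by
    rw [Subgroup.normalCore_eq_ker]
    ext g
    rw [MonoidHom.mem_ker, MonoidHom.mem_ker, hf₀]
    show e.permCongrHom (MulAction.toPermHom P (P ⧸ H) g) = 1 ↔ _
    rw [map_eq_one_iff _ (MulEquiv.injective _)]
  have hRp : IsPGroup p f₀.range := by
    have := (hP.to_subgroup ⊤).map f₀
    rwa [← MonoidHom.range_eq_map] at this
  obtain ⟨Q, hQ⟩ := hRp.exists_le_sylow
  have hQcard : Nat.card Q = p ^ (p + 1) := by
    rw [Q.card_eq_multiplicity, Nat.card_eq_fintype_card, Fintype.card_perm, Fintype.card_fin, Nat.factorization_def _ hpp, pv]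
  obtain ⟨k, hk⟩ := IsPGroup.iff_card.1 hRp
  have hkp : p + 1 ≤ k := by
    by_contra hlt
    push Not at hlt
    apply hNH
    have h1 : f₀.ker.index = p ^ k := by
      rw [Subgroup.index_ker, hk]
    haveI : (f₀.ker).Normal := inferInstance
    have h2 := key A hA hidx x y hx f₀.ker (by rw [hker]; exact (H.normalCore_le).trans hHA) (by omega : k ≤ p) h1
    rw [hker, ← hN] at h2
    exact H.normalCore_le h2
  have hRQ : f₀.range = (Q : Subgroup (Equiv.Perm (Fin (p ^ 2)))) := by
    apply Subgroup.eq_of_le_of_card_ge hQ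
    show Nat.card Q ≤ _
    rw [hQcard, hk]
    exact Nat.pow_le_pow_right hpp.pos hkp
  refine ⟨Q, f₀.codRestrict Q (fun g => hQ ⟨g, rfl⟩), ?_⟩
  rintro ⟨z, hz⟩
  rw [← hRQ] at hz
  obtain ⟨g, rfl⟩ := hz
  exact ⟨g, rfl⟩

end Cfsg.Agent.S1952
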