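import Cfsg.Statements.S1956
import Cfsg.Agent.LibFus9

set_option autoImplicit false
open Cfsg

namespace Cfsg.Agent.S1956

open CfsgLib.BGPi CfsgLib.Fus9
open scoped CfsgLib.BGPi

/-- Let P be a Sylow p-subgroup of the finite group G such that every element of P of order dividing p (dividing 4 when p = 2) is central in P. Then the fusion of these elements is controlled by N_G(P): if such an element a of P has g a g⁻¹ in P, then g = n c with n normalizing P and c commuting with a. -/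
theorem result {G : Type*} [Group G] [Finite G] {p : ℕ} [Fact p.Prime] (P : Sylow p G)
    (hcen : ∀ a ∈ (P : Subgroup G), (a ^ p = 1 ∨ (p = 2 ∧ a ^ 4 = 1)) → ∀ y ∈ (P : Subgroup G), a * y = y * a) :
    ∀ a ∈ (P : Subgroup G), (a ^ p = 1 ∨ (p = 2 ∧ a ^ 4 = 1)) → ∀ g : G, g * a * g⁻¹ ∈ (P : Subgroup G) →
      ∃ n ∈ Subgroup.normalizer ((P : Subgroup G) : Set G), ∃ c : G, c * a = a * c ∧ g = n * c := by
  intro a ha hord g hg
  set b := g * a * g⁻¹ with hb
  have hordb : b ^ p = 1 ∨ (p = 2 ∧ b ^ 4 = 1) := by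
    rcases hord with h | ⟨h, h'⟩
    · left; rw [hb, conj_pow, h]; group
    · right; refine ⟨h, ?_⟩; rw [hb, conj_pow, h']; group
  have hca := hcen a ha hord
  have hcb := hcen b hg hordb
  have h1 : (P : Subgroup G) ^ᵍ (1 : G) ≤ Subgroup.centralizer ({b} : Set G) := by
    rw [cj_one]
    intro x hx
    rw [Subgroup.mem_centralizer_singleton_iff]
    exact (hcb x hx).symm
  have h2 : (P : Subgroup G) ^ᵍ g ≤ Subgroup.centralizer ({b} : Set G) := by
    intro x hx
    rw [mem_cj] at hx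
    rw [Subgroup.mem_centralizer_singleton_iff, hb]
    have := hca _ hx
    calc x * (g * a * g⁻¹) = g * ((g⁻¹ * x * g) * a) * g⁻¹ := by group
      _ = g * (a * (g⁻¹ * x * g)) * g⁻¹ := by rw [this]
      _ = _ := by group
  obtain ⟨c, hc, e⟩ := sylow_conj_in P h2 h1
  rw [cj_one, ← cj_mul] at e
  have hn : c * g ∈ Subgroup.normalizer ((P : Subgroup G) : Set G) := mem_nz.2 e
  refine ⟨c * g, hn, (c * g)⁻¹ * c⁻¹ * (c * g), ?_, by group⟩
  have hcb' : c * b = b * c := Subgroup.mem_centralizer_singleton_iff.1 hc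
  have hcb2 : c⁻¹ * b = b * c⁻¹ := by
    calc c⁻¹ * b = c⁻¹ * (b * c) * c⁻¹ := by group
      _ = c⁻¹ * (c * b) * c⁻¹ := by rw [hcb']
      _ = b * c⁻¹ := by group
  have hae : a = g⁻¹ * b * g := by rw [hb]; group
  have e1 : (c * g)⁻¹ * c⁻¹ * (c * g) = g⁻¹ * c⁻¹ * g := by group
  rw [e1, hae]
  calc g⁻¹ * c⁻¹ * g * (g⁻¹ * b * g) = g⁻¹ * (c⁻¹ * b) * g := by group
    _ = g⁻¹ * (b * c⁻¹) * g := by rw [hcb2]
    _ = _ := by group

end Cfsg.Agent.S1956
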