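import Cfsg.Statements.S1988
import Cfsg.Agent.LibNpcRed9
import Cfsg.Agent.LibKfun9

set_option autoImplicit false
universe u
open Cfsg

namespace Cfsg.Agent.S1988

open CfsgLib.BGPi CfsgLib.NpcRed9 CfsgLib.HH9 CfsgLib.Kfun9 CfsgLib.Npc9 CfsgLib.Weak9
open scoped CfsgLib.BGPi

/-- Let p be an odd prime, G a finite group with Sylow p-subgroup S and K the lower K-infinity subgroup of S. If N_G(K) has a normal p-complement, or if N_G(K)/C_G(K) is a p-group (every element of N_G(K) of order prime to p centralizes K), then G has a normal p-complement. -/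
theorem result {G : Type u} [Group G] [Finite G] {p : ℕ} [Fact p.Prime] (hp : p ≠ 2) (S : Sylow p G) (h : Cfsg.HasNormalPComplement p ↥(Subgroup.normalizer ((Cfsg.inducedFunctor Cfsg.kInfLower (S : Subgroup G) : Subgroup G) : Set G)) ∨ ∀ g ∈ Subgroup.normalizer ((Cfsg.inducedFunctor Cfsg.kInfLower (S : Subgroup G) : Subgroup G) : Set G), (orderOf g).Coprime p → g ∈ Subgroup.centralizer ((Cfsg.inducedFunctor Cfsg.kInfLower (S : Subgroup G) : Subgroup G) : Set G)) : Cfsg.HasNormalPComplement p G := by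
  have hW : CfsgLib.Kfun9.IsK @Cfsg.kInfLower := Or.inl rfl
  have main : Cfsg.HasNormalPComplement p ↥(Subgroup.normalizer
      ((Cfsg.inducedFunctor Cfsg.kInfLower (S : Subgroup G) : Subgroup G) : Set G)) →
      Cfsg.HasNormalPComplement p G := by
    intro hN
    refine npc_min' (K_char hW) ?_ S hN
    intro K R hR T h1 h2 h3 h4
    have hab := ablen_of_coatom T h3 h2
    refine hnpc_of_normal_W (K_normal_of_stable hW (fun N _ => ?_) h1 T) h4
    exact stable_sections_of_ablen hp (hab.of_surjective (QuotientGroup.mk' N)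
      (QuotientGroup.mk'_surjective N))
  rcases h with h | h
  · exact main h
  · apply main
    set K := Cfsg.inducedFunctor Cfsg.kInfLower (S : Subgroup G) with hK
    set N := Subgroup.normalizer ((K : Subgroup G) : Set G) with hN
    have hWc : Cfsg.IsConjugacyFunctor p (Cfsg.inducedFunctor (G := G) Cfsg.kInfLower) := K_isConj hW
    have hKS : K ≤ (S : Subgroup G) := (hWc _ S.2).1
    have hSN : (S : Subgroup G) ≤ N :=
      Subgroup.le_normalizer.trans (CfsgLib.FusionH12b.nrm_le_nrm_W hWc S.2)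
    have hS := CfsgLib.FusionH12.SylIn.ofSylow S
    have hCN : 𝓒(K) ≤ N := Subgroup.centralizer_le_normalizer _
    have hNC : N ≤ 𝓝(𝓒(K)) := le_nz_cz (le_refl _)
    -- the Sylow subgroup of the centralizer
    have hSC : SylIn p ((S : Subgroup G) ⊓ 𝓒(K)) 𝓒(K) :=
      (hS.mono hSN le_top).inf_normal hCN hNC
    have hcS : (S : Subgroup G) ⊓ 𝓒(K) ≤ K := by
      rintro x ⟨hx, hxc⟩
      have h1 := (Cfsg.Agent.S1978.result S.2).1
      have h2 : (⟨x, hx⟩ : ↥(S : Subgroup G)) ∈
          Subgroup.centralizer (Cfsg.kInfLower ↥(S : Subgroup G) : Set ↥(S : Subgroup G)) := by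
        rw [Subgroup.mem_centralizer_iff]
        intro y hy
        exact Subtype.ext (Subgroup.mem_centralizer_iff.1 hxc (y : G) ⟨y, hy, rfl⟩)
      exact ⟨_, h1 h2, rfl⟩
    have hnC : Cfsg.HasNormalPComplement p ↥(𝓒(K)) := by
      obtain ⟨T, hT⟩ := hSC.toSylow
      refine hnpc_of_central T ?_
      intro c _
      rw [Subgroup.mem_centralizer_iff]
      intro t ht
      rw [SetLike.mem_coe, hT, Subgroup.mem_subgroupOf] at ht
      exact Subtype.ext (Subgroup.mem_centralizer_iff.1 c.2 (t : G) (hcS ht))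
    -- index
    set C := (𝓒(K)).subgroupOf N with hC
    have hCn : C.Normal := by
      rw [← Subgroup.normalizer_eq_top_iff, eq_top_iff, nz_sub,
        Subgroup.map_subgroupOf_eq_of_le hCN]
      intro x _
      exact hNC x.2
    have hq : IsPGroup p (↥N ⧸ C) := by
      intro y
      obtain ⟨x, rfl⟩ := QuotientGroup.mk'_surjective C y
      obtain ⟨a, m, hm, hxm⟩ := Nat.exists_eq_pow_mul_and_not_dvd (orderOf_pos x).ne' p
        (Fact.out : p.Prime).ne_one
      have hwo : orderOf (x ^ p ^ a) = m := by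
        rw [orderOf_pow, hxm, Nat.gcd_mul_right_left,
          Nat.mul_div_cancel_left _ (pow_pos (Fact.out : p.Prime).pos a)]
      refine ⟨a, ?_⟩
      rw [← map_pow]
      refine (QuotientGroup.eq_one_iff _).2 ?_
      refine h _ (x ^ p ^ a).2 ?_
      rw [Subgroup.subtype_apply, Subgroup.orderOf_coe, hwo]
      exact ((Nat.Prime.coprime_iff_not_dvd (Fact.out : p.Prime)).2 hm).symm
    obtain ⟨k, hk⟩ := IsPGroup.iff_card.1 hq
    have hidx : C.index = p ^ k := by rw [Subgroup.index_eq_card, hk]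
    exact hnpc_of_normal_index hCn hidx
      ((hnpc_equiv (Subgroup.subgroupOfEquivOfLe hCN)).2 hnC)

end Cfsg.Agent.S1988
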