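import Cfsg.Statements.S2001
import Cfsg.Agent.LibCentricH12

set_option autoImplicit false
open Cfsg

namespace Cfsg.Agent.S2001

/-- Let p be a prime dividing the order of the finite group G, P a Sylow p-subgroup, W a conjugacy functor for p on G with Z(H) ≤ W(H) for every nontrivial p-subgroup H, and V a central functor: a conjugacy functor with V(H) ≤ Z(H), and V(H) ≤ V(K) whenever Z(H) ≤ Z(K), for nontrivial p-subgroups H, K. Say that W with V controls transfer in a subgroup L when some Sylow p-subgroup Q of L satisfies Q ∩ L' = (Q ∩ (N_L(W(Q)))')·(Q ∩ (C_L(V(Q)))') as a product of two subgroups. If W with V controls transfer in N_G(H) for every subgroup H with Z(P) ≤ H ≤ P, then W with V controls transfer in G. -/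
theorem result {G : Type*} [Group G] [Finite G] {p : ℕ} [Fact p.Prime] (hdiv : p ∣ Nat.card G) (P : Sylow p G) (W V : Subgroup G → Subgroup G) (hW : Cfsg.IsConjugacyFunctor p W) (hV : Cfsg.IsConjugacyFunctor p V) (hWZ : ∀ H : Subgroup G, IsPGroup p ↥H → H ⊓ Subgroup.centralizer ((H : Subgroup G) : Set G) ≤ W H) (hVZ : ∀ H : Subgroup G, IsPGroup p ↥H → V H ≤ H ⊓ Subgroup.centralizer ((H : Subgroup G) : Set G)) (hVmono : ∀ H K : Subgroup G, IsPGroup p ↥H → IsPGroup p ↥K → H ≠ ⊥ → K ≠ ⊥ → H ⊓ Subgroup.centralizer ((H : Subgroup G) : Set G) ≤ K ⊓ Subgroup.centralizer ((K : Subgroup G) : Set G) → V H ≤ V K) (hloc : ∀ H : Subgroup G, (P : Subgroup G) ⊓ Subgroup.centralizer (((P : Subgroup G) : Subgroup G) : Set G) ≤ H → H ≤ (P : Subgroup G) → ∃ Q : Subgroup G, Q ≤ Subgroup.normalizer ((H : Subgroup G) : Set G) ∧ IsPGroup p ↥Q ∧ ¬ p ∣ (Q).relIndex (Subgroup.normalizer ((H : Subgroup G) : Set G)) ∧ ∀ x : G, x ∈ Q ⊓ ⁅Subgroup.normalizer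 ((H : Subgroup G) : Set G), Subgroup.normalizer ((H : Subgroup G) : Set G)⁆ ↔ ∃ a ∈ Q ⊓ ⁅Subgroup.normalizer ((H : Subgroup G) : Set G) ⊓ Subgroup.normalizer ((W Q : Subgroup G) : Set G), Subgroup.normalizer ((H : Subgroup G) : Set G) ⊓ Subgroup.normalizer ((W Q : Subgroup G) : Set G)⁆, ∃ b ∈ Q ⊓ ⁅Subgroup.normalizer ((H : Subgroup G) : Set G) ⊓ Subgroup.centralizer ((V Q : Subgroup G) : Set G), Subgroup.normalizer ((H : Subgroup G) : Set G) ⊓ Subgroup.centralizer ((V Q : Subgroup G) : Set G)⁆, x = a * b) : ∃ Q : Subgroup G, IsPGroup p ↥Q ∧ ¬ p ∣ Q.index ∧ ∀ x : G, x ∈ Q ⊓ commutator G ↔ ∃ a ∈ Q ⊓ ⁅Subgroup.normalizer ((W Q : Subgroup G) : Set G), Subgroup.normalizer ((W Q : Subgroup G) : Set G)⁆, ∃ b ∈ Q ⊓ ⁅Subgroup.centralizer ((V Q : Subgroup G) : Set G), Subgroup.centralizer ((V Q : Subgroup G) : Set G)⁆, x = a * b := by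
  have hpair : CfsgLib.CentricH12.PairHyp p W V := ⟨hW, hV, hWZ, hVZ, hVmono⟩
  have hP := CfsgLib.FusionH12.SylIn.ofSylow P
  have hPne : (P : Subgroup G) ≠ ⊥ := P.ne_bot_of_dvd_card hdiv
  have key := CfsgLib.CentricH12.pair_transfer hpair hP hPne ?_
  · refine ⟨P, P.2, P.not_dvd_index, fun x => ?_⟩
    have hBN : (P : Subgroup G) ⊓ ⁅Subgroup.centralizer ((V (P : Subgroup G) : Subgroup G) : Set G),
        Subgroup.centralizer ((V (P : Subgroup G) : Subgroup G) : Set G)⁆ ≤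
        Subgroup.normalizer (((P : Subgroup G) ⊓
          ⁅Subgroup.normalizer ((W (P : Subgroup G) : Subgroup G) : Set G),
            Subgroup.normalizer ((W (P : Subgroup G) : Subgroup G) : Set G)⁆ : Subgroup G) : Set G) := by
      intro y hy
      have hyN := (Subgroup.le_normalizer.trans (CfsgLib.FusionH12b.nrm_le_nrm_W hW P.2)) hy.1
      rw [CfsgLib.FusionH12.mem_nrm, CfsgLib.FusionH12.cj_inf, CfsgLib.FusionH12.cj_commutator,
        CfsgLib.FusionH12.cj_of_mem hy.1, CfsgLib.FusionH12.cj_of_mem hyN]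
    rw [← CfsgLib.CentricH12.mem_sup_of_le_normalizer hBN]
    constructor
    · intro hx
      exact key hx
    · intro hx
      refine (sup_le ?_ ?_ : _ ≤ (P : Subgroup G) ⊓ _root_.commutator G) hx
      · exact inf_le_inf le_rfl (Subgroup.commutator_mono le_top le_top)
      · exact inf_le_inf le_rfl (Subgroup.commutator_mono le_top le_top)
  · intro H hZH hHP hR
    obtain ⟨Q, hQ1, hQ2, hQ3, hQ4⟩ := hloc H hZH hHP
    have hQ : CfsgLib.FusionH12.SylIn p Q (Subgroup.normalizer (H : Set G)) := ⟨hQ1, hQ2, hQ3⟩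
    obtain ⟨h, hh, hhQ⟩ := hQ.exists_conj hR
    set R := (P : Subgroup G) ⊓ Subgroup.normalizer (H : Set G) with hRdef
    have hQR : CfsgLib.FusionH12.cj h⁻¹ Q = R := by rw [← hhQ, CfsgLib.FusionH12.cj_inv_cj]
    intro z hz
    have h1 : h * z * h⁻¹ ∈ Q ⊓ ⁅Subgroup.normalizer (H : Set G), Subgroup.normalizer (H : Set G)⁆ := by
      refine ⟨by rw [← hhQ]; exact CfsgLib.FusionH12.conj_mem_cj hz.1, ?_⟩
      have h2 := CfsgLib.FusionH12.conj_mem_cj (g := h) hz.2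
      rwa [CfsgLib.FusionH12.cj_commutator, CfsgLib.FusionH12.cj_of_mem hh] at h2
    obtain ⟨a, ha, b, hb, hab⟩ := (hQ4 _).1 h1
    have h3 : h⁻¹ * a * h⁻¹⁻¹ ∈ R ⊓
        ⁅Subgroup.normalizer ((W R : Subgroup G) : Set G), Subgroup.normalizer ((W R : Subgroup G) : Set G)⁆ := by
      have h4 : a ∈ Q ⊓ ⁅Subgroup.normalizer ((W Q : Subgroup G) : Set G),
          Subgroup.normalizer ((W Q : Subgroup G) : Set G)⁆ :=
        ⟨ha.1, Subgroup.commutator_mono inf_le_right inf_le_right ha.2⟩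
      have h5 := CfsgLib.FusionH12.conj_mem_cj (g := h⁻¹) h4
      rwa [CfsgLib.FusionH12.cj_inf, CfsgLib.FusionH12.cj_commutator, CfsgLib.FusionH12.cj_normalizer,
        ← CfsgLib.FusionH12b.W_cj hW hQ2, hQR] at h5
    have h6 : h⁻¹ * b * h⁻¹⁻¹ ∈ R ⊓
        ⁅Subgroup.centralizer ((V R : Subgroup G) : Set G), Subgroup.centralizer ((V R : Subgroup G) : Set G)⁆ := by
      have h4 : b ∈ Q ⊓ ⁅Subgroup.centralizer ((V Q : Subgroup G) : Set G),
          Subgroup.centralizer ((V Q : Subgroup G) : Set G)⁆ :=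
        ⟨hb.1, Subgroup.commutator_mono inf_le_right inf_le_right hb.2⟩
      have h5 := CfsgLib.FusionH12.conj_mem_cj (g := h⁻¹) h4
      rwa [CfsgLib.FusionH12.cj_inf, CfsgLib.FusionH12.cj_commutator, CfsgLib.FusionH12.cj_centralizer,
        ← CfsgLib.FusionH12b.W_cj hV hQ2, hQR] at h5
    have h7 := mul_mem (Subgroup.mem_sup_left h3) (Subgroup.mem_sup_right h6)
    have e : h⁻¹ * a * h⁻¹⁻¹ * (h⁻¹ * b * h⁻¹⁻¹) = z := by
      calc h⁻¹ * a * h⁻¹⁻¹ * (h⁻¹ * b * h⁻¹⁻¹) = h⁻¹ * (a * b) * h := by group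
        _ = z := by rw [← hab]; group
    rw [e] at h7
    exact h7

end Cfsg.Agent.S2001
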