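import Cfsg.Statements.S2002
import Cfsg.Agent.LibCentricH12

set_option autoImplicit false
open Cfsg

namespace Cfsg.Agent.S2002

open CfsgLib.FusionH12 CfsgLib.FusionH12c in
theorem prod_take {G : Type*} [Group G] {n : ℕ} (c : Fin (n + 1) → G) (h0 : c 0 = 1) :
    ∀ k : ℕ, ∀ hk : k ≤ n,
      ((List.ofFn fun i : Fin n => c i.castSucc * (c i.succ)⁻¹).take k).prod = (c ⟨k, by omega⟩)⁻¹ := by
  intro k
  induction k with
  | zero =>
    intro hk
    have : (⟨0, by omega⟩ : Fin (n + 1)) = 0 := rfl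
    rw [this, h0]; simp
  | succ k ih =>
    intro hk
    rw [List.prod_take_succ _ _ (by simpa using hk), ih (by omega), List.getElem_ofFn]
    have e1 : (⟨k, by omega⟩ : Fin n).castSucc = (⟨k, by omega⟩ : Fin (n + 1)) := rfl
    have e2 : (⟨k, by omega⟩ : Fin n).succ = (⟨k + 1, by omega⟩ : Fin (n + 1)) := rfl
    rw [e1, e2, inv_mul_cancel_left]

open CfsgLib.FusionH12 CfsgLib.FusionH12c in
/-- a chain in the form of the statement gives a reachable element -/
theorem reach_of_list {G : Type*} [Group G] {Q : Subgroup G} {𝓝 : Set (Subgroup G)} {D : Subgroup G}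
    (hD : D ≤ Q) {n : ℕ} (b : Fin n → G) (hb : ∀ i, ∃ N ∈ 𝓝, b i ∈ N)
    (hk : ∀ k : ℕ, k ≤ n → cj (((List.ofFn b).take k).prod)⁻¹ D ≤ Q) :
    Reach (FStep Q 𝓝) D ((List.ofFn b).prod)⁻¹ := by
  have key : ∀ k : ℕ, k ≤ n → Reach (FStep Q 𝓝) D (((List.ofFn b).take k).prod)⁻¹ := by
    intro k
    induction k with
    | zero => intro _; simpa using Reach.refl D
    | succ k ih =>
      intro hkn
      have h1 := ih (by omega)
      have h2 : ((List.ofFn b).take (k + 1)).prod = ((List.ofFn b).take k).prod * b ⟨k, by omega⟩ := by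
        rw [List.prod_take_succ _ _ (by simpa using hkn), List.getElem_ofFn]
      rw [h2, mul_inv_rev]
      refine h1.trans (Reach.single ⟨hk k (by omega), ?_, Or.inl ?_⟩)
      · rw [← cj_mul, ← mul_inv_rev, ← h2]; exact hk (k + 1) hkn
      · obtain ⟨N, hN, hbN⟩ := hb ⟨k, by omega⟩
        exact ⟨N, hN, inv_mem hbN⟩
  have := key n le_rfl
  rwa [List.take_of_length_le (by simp)] at this


/-- Let p be a prime dividing the order of the finite group G, P a Sylow p-subgroup, W a conjugacy functor for p on G with Z(H) ≤ W(H) for every nontrivial p-subgroup H, and V a central functor (a conjugacy functor with V(H) ≤ Z(H), and V(H) ≤ V(K) whenever Z(H) ≤ Z(K)). Say that W with V controls strong fusion in a subgroup L when some Sylow p-subgroup Q of L has the property: whenever X ⊆ Q and a ∈ L with a⁻¹Xa ⊆ Q, then a = c b with c ∈ C_L(X) and b = b₁ ⋯ bₙ a product of elements each in N_L(W(Q)) or in C_L(V(Q)) such that every partial conjugate (b₁ ⋯ bₖ)⁻¹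 X (b₁ ⋯ bₖ) lies in Q. If W with V controls strong fusion in N_G(H) for every subgroup H with Z(P) ≤ H ≤ P, then W with V controls strong fusion in G. -/
theorem result {G : Type*} [Group G] [Finite G] {p : ℕ} [Fact p.Prime] (hdiv : p ∣ Nat.card G) (P : Sylow p G) (W V : Subgroup G → Subgroup G) (hW : Cfsg.IsConjugacyFunctor p W) (hV : Cfsg.IsConjugacyFunctor p V) (hWZ : ∀ H : Subgroup G, IsPGroup p ↥H → H ⊓ Subgroup.centralizer ((H : Subgroup G) : Set G) ≤ W H) (hVZ : ∀ H : Subgroup G, IsPGroup p ↥H → V H ≤ H ⊓ Subgroup.centralizer ((H : Subgroup G) : Set G)) (hVmono : ∀ H K : Subgroup G, IsPGroup p ↥H → IsPGroup p ↥K → H ≠ ⊥ → K ≠ ⊥ → H ⊓ Subgroup.centralizer ((H : Subgroup G) : Set G) ≤ K ⊓ Subgroup.centralizer ((K : Subgroup G) : Set G) → V H ≤ V K) (hloc : ∀ H : Subgroup G, (P : Subgroup G) ⊓ Subgroup.centralizer (((P : Subgroup G) : Subgroup G) : Set G) ≤ H → H ≤ (P : Subgroup G) → ∃ Q : Subgroup G, Q ≤ Subgroup.normalizer ((H : Subgroup G) :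 Set G) ∧ IsPGroup p ↥Q ∧ ¬ p ∣ (Q).relIndex (Subgroup.normalizer ((H : Subgroup G) : Set G)) ∧ ∀ (X : Set G) (a : G), X ⊆ Q → a ∈ Subgroup.normalizer ((H : Subgroup G) : Set G) → (fun x => a⁻¹ * x * a) '' X ⊆ Q → ∃ c ∈ Subgroup.normalizer ((H : Subgroup G) : Set G) ⊓ Subgroup.centralizer X, ∃ (n : ℕ) (b : Fin n → G), (∀ i, b i ∈ Subgroup.normalizer ((H : Subgroup G) : Set G) ⊓ Subgroup.normalizer ((W Q : Subgroup G) : Set G) ∨ b i ∈ Subgroup.normalizer ((H : Subgroup G) : Set G) ⊓ Subgroup.centralizer ((V Q : Subgroup G) : Set G)) ∧ a = c * (List.ofFn b).prod ∧ ∀ k : ℕ, k ≤ n → (fun x => (((List.ofFn b).take k).prod)⁻¹ * x * ((List.ofFn b).take k).prod) '' ((fun x => c⁻¹ * x * c) '' X) ⊆ Q) : ∃ Q : Subgroup G, IsPGroup p ↥Q ∧ ¬ p ∣ Q.index ∧ ∀ (X : Set G) (a : G), X ⊆ Q → (fun x => a⁻¹ * x * a) '' X ⊆ Q → ∃ c ∈ Subgroup.centralizer X, ∃ (n : ℕ) (b : Fin n → G), (∀ i, b i ∈ ⊤ ⊓ Subgroup.normalizer ((W Q : Subgroup G) : Set G) ∨ b i ∈ ⊤ ⊓ Subgroup.centralizer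 ((V Q : Subgroup G) : Set G)) ∧ a = c * (List.ofFn b).prod ∧ ∀ k : ℕ, k ≤ n → (fun x => (((List.ofFn b).take k).prod)⁻¹ * x * ((List.ofFn b).take k).prod) '' ((fun x => c⁻¹ * x * c) '' X) ⊆ Q := by
  have hpair : CfsgLib.CentricH12.PairHyp p W V := ⟨hW, hV, hWZ, hVZ, hVmono⟩
  have hP := CfsgLib.FusionH12.SylIn.ofSylow P
  have hPne : (P : Subgroup G) ≠ ⊥ := P.ne_bot_of_dvd_card hdiv
  have key := CfsgLib.CentricH12.pair_fusion hpair hP hPne ?_
  · refine ⟨P, P.2, P.not_dvd_index, fun X a hX haX => ?_⟩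
    obtain ⟨n, c, c1, c2, c3, c4⟩ := CfsgLib.FusionH12c.fusIn_iff.1 key X a⁻¹ (Subgroup.mem_top _) hX
      (by simpa using haX)
    have hcX : ∀ x ∈ X, (a * c (Fin.last n)) * x * (a * c (Fin.last n))⁻¹ = x := by
      intro x hx
      calc (a * c (Fin.last n)) * x * (a * c (Fin.last n))⁻¹
          = a * (c (Fin.last n) * x * (c (Fin.last n))⁻¹) * a⁻¹ := by group
        _ = x := by rw [c4 x hx]; group
    have hcc : a * c (Fin.last n) ∈ Subgroup.centralizer X := by
      rw [Subgroup.mem_centralizer_iff]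
      intro x hx
      have := hcX x hx
      exact (mul_inv_eq_iff_eq_mul.1 this).symm
    have hcX' : ∀ x ∈ X, (a * c (Fin.last n))⁻¹ * x * (a * c (Fin.last n)) = x := by
      intro x hx
      have := hcX x hx
      calc (a * c (Fin.last n))⁻¹ * x * (a * c (Fin.last n)) =
          (a * c (Fin.last n))⁻¹ * ((a * c (Fin.last n)) * x * (a * c (Fin.last n))⁻¹) *
            (a * c (Fin.last n)) := by rw [this]
        _ = x := by group
    refine ⟨a * c (Fin.last n), hcc, n, fun i => c i.castSucc * (c i.succ)⁻¹, ?_, ?_, ?_⟩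
    · intro i
      obtain ⟨N, hN, hi⟩ := c2 i
      have hi' := inv_mem hi
      rw [mul_inv_rev, inv_inv] at hi'
      rcases hN with rfl | rfl
      · exact Or.inl ⟨Subgroup.mem_top _, hi'⟩
      · exact Or.inr ⟨Subgroup.mem_top _, hi'⟩
    · have h1 := prod_take c c1 n le_rfl
      rw [List.take_of_length_le (by simp)] at h1
      have e : (⟨n, by omega⟩ : Fin (n + 1)) = Fin.last n := rfl
      rw [h1, e, mul_inv_cancel_right]
    · intro k hk
      rw [prod_take c c1 k hk]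
      rintro _ ⟨_, ⟨x, hx, rfl⟩, rfl⟩
      beta_reduce
      rw [hcX' x hx]
      have := c3 ⟨k, by omega⟩ ⟨x, hx, rfl⟩
      simpa using this
  · intro H hZH hHP hR
    obtain ⟨Q, hQ1, hQ2, hQ3, hQ4⟩ := hloc H hZH hHP
    have hQ : CfsgLib.FusionH12.SylIn p Q (Subgroup.normalizer (H : Set G)) := ⟨hQ1, hQ2, hQ3⟩
    have hfus : CfsgLib.FusionH12c.FusIn Q (Subgroup.normalizer (H : Set G))
        {Subgroup.normalizer (H : Set G) ⊓ Subgroup.normalizer ((W Q : Subgroup G) : Set G),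
         Subgroup.normalizer (H : Set G) ⊓ Subgroup.centralizer ((V Q : Subgroup G) : Set G)} := by
      intro D g hD hg hgD
      obtain ⟨c, hc, n, b, hb, hab, hk⟩ := hQ4 (D : Set G) g⁻¹ hD (inv_mem hg) (by
        rintro _ ⟨d, hd, rfl⟩
        have := hgD (CfsgLib.FusionH12.conj_mem_cj hd)
        simpa using this)
      have hcD : c⁻¹ ∈ Subgroup.centralizer (D : Set G) := inv_mem hc.2
      have h1 : CfsgLib.FusionH12.Reach (CfsgLib.FusionH12c.FStep Q
          {Subgroup.normalizer (H : Set G) ⊓ Subgroup.normalizer ((W Q : Subgroup G) : Set G),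
           Subgroup.normalizer (H : Set G) ⊓ Subgroup.centralizer ((V Q : Subgroup G) : Set G)})
          D ((List.ofFn b).prod)⁻¹ := by
        refine reach_of_list hD b ?_ ?_
        · intro i
          rcases hb i with h | h
          · exact ⟨_, Or.inl rfl, h⟩
          · exact ⟨_, Or.inr rfl, h⟩
        · intro k hkn
          rw [CfsgLib.FusionH12.cj_le']
          intro d hd
          have hd' : c⁻¹ * d * c = d := by
            have := CfsgLib.FusionH12.mem_centralizer_iff'.1 hcD d hd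
            simpa using this
          have := hk k hkn ⟨_, ⟨d, hd, rfl⟩, rfl⟩
          beta_reduce at this
          rw [hd'] at this
          simpa using this
      refine CfsgLib.FusionH12c.reach_centralizing hD h1 ?_
      have e : (((List.ofFn b).prod)⁻¹)⁻¹ * g = c⁻¹ := by
        have : g = ((List.ofFn b).prod)⁻¹ * c⁻¹ := by
          rw [← mul_inv_rev, ← hab, inv_inv]
        rw [this]; group
      rw [e]; exact hcD
    obtain ⟨h, hh, hhQ⟩ := hQ.exists_conj hR
    set R := (P : Subgroup G) ⊓ Subgroup.normalizer (H : Set G) with hRdef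
    have hQR : CfsgLib.FusionH12.cj h⁻¹ Q = R := by rw [← hhQ, CfsgLib.FusionH12.cj_inv_cj]
    have h1 := CfsgLib.FusionH12c.FusIn.cj hfus h⁻¹
    rw [Set.image_pair, CfsgLib.FusionH12.cj_inf, CfsgLib.FusionH12.cj_inf,
      CfsgLib.FusionH12.cj_normalizer h⁻¹ (W Q), CfsgLib.FusionH12.cj_centralizer,
      CfsgLib.FusionH12.cj_of_mem (inv_mem hh), ← CfsgLib.FusionH12b.W_cj hW hQ2,
      ← CfsgLib.FusionH12b.W_cj hV hQ2, hQR] at h1
    exact h1

end Cfsg.Agent.S2002
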