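import Cfsg.Statements.S5425
import Cfsg.Agent.EqBase
import Cfsg.Agent.LibHolE28
import Cfsg.Agent.LibHolF28
import Cfsg.Agent.LibRestr28
import Cfsg.Agent.LibM24f
import Cfsg.Agent.LibTri28
import Cfsg.Agent.S1554

set_option autoImplicit false
open Cfsg

namespace Cfsg.Agent.S5425

open CfsgLib.Golay CfsgLib.M24 CfsgLib.Restr28 CfsgLib.Blk28 CfsgLib.Trio28 MulAction
open scoped Pointwise

theorem smul_eq_iff_mem {o : Finset GolayPt} {g : ↥M24} : g • o = o ↔ ∀ x, (g : Equiv.Perm GolayPt) x ∈ o ↔ x ∈ o := by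
  rw [← stab_iff]
  rfl

theorem exists_pt {o : Finset GolayPt} (ho : o ∈ octads) : ∃ p, p ∉ o := by
  by_contra hcon
  push Not at hcon
  have h1 : o = Finset.univ := Finset.eq_univ_iff_forall.2 hcon
  have h2 : o.card = 8 := ho.2
  rw [h1, Finset.card_univ, card_pt] at h2
  omega

/-- the complement -/
def MM (o : Finset GolayPt) (p : GolayPt) : Subgroup ↥M24 := stabilizer ↥M24 o ⊓ stabilizer ↥M24 p

theorem card_MM {o : Finset GolayPt} (ho : o ∈ octads) {p : GolayPt} (hp : p ∉ o) : Nat.card ↥(MM o p) = 20160 := by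
  obtain ⟨-, -, ⟨e⟩⟩ := Cfsg.Agent.S1554.result o ho p hp
  have h1 : Nat.card ↥(MM o p) = Nat.card ↥(Cfsg.M24 ⊓ MulAction.stabilizer (Equiv.Perm Cfsg.GolayPt) o ⊓ MulAction.stabilizer (Equiv.Perm Cfsg.GolayPt) p) := by
    refine Nat.card_congr ⟨fun g => ⟨((g : ↥M24) : Equiv.Perm GolayPt), Subgroup.mem_inf.2 ⟨Subgroup.mem_inf.2 ⟨(g : ↥M24).2, (Subgroup.mem_inf.1 g.2).1⟩, (Subgroup.mem_inf.1 g.2).2⟩⟩,
      fun g => ⟨⟨g, (Subgroup.mem_inf.1 (Subgroup.mem_inf.1 g.2).1).1⟩, Subgroup.mem_inf.2 ⟨(Subgroup.mem_inf.1 (Subgroup.mem_inf.1 g.2).1).2, (Subgroup.mem_inf.1 g.2).2⟩⟩, fun g => rfl, fun g => rfl⟩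
  rw [h1, Nat.card_congr e.toEquiv]
  have h2 := two_mul_nat_card_alternatingGroup (α := Fin 8)
  rw [Nat.card_perm, Nat.card_fin] at h2
  have h3 : Nat.factorial 8 = 40320 := by decide
  omega

theorem card_GL42 : Nat.card (GL (Fin 4) (ZMod 2)) = 20160 := by
  haveI : Fact (Nat.Prime 2) := ⟨Nat.prime_two⟩
  rw [Matrix.card_GL_field]
  simp only [ZMod.card, Fin.prod_univ_four]
  norm_num

theorem holM {o : Finset GolayPt} (ho : o ∈ octads) {p : GolayPt} (hp : p ∉ o) : CfsgLib.Hol28.Hol (fx o) (MM o p) := by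
  apply CfsgLib.Hol28.Hol.of_card (e := 4)
  · exact fx_sq ho
  · rintro m ⟨hm, -⟩ u hu
    have := fx_conj (g := m) hu
    rw [show m • o = o from hm] at this
    exact this
  · rw [eq_bot_iff]
    rintro x ⟨hx1, -, hx2⟩
    exact fx_fix ho hp hx1 hx2
  · rintro m ⟨hm1, hm2⟩ hu
    have h1 : ∀ q, q ∉ o → (m : Equiv.Perm GolayPt) q = q := by
      intro q hq
      obtain ⟨e, he, heo, hep⟩ := ptw_trans ho hp hq
      have h2 := hu ⟨e, he⟩ heo
      have h3 : m * ⟨e, he⟩ = ⟨e, he⟩ * m := mul_inv_eq_iff_eq_mul.1 h2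
      have h4 := congrArg (fun g : ↥M24 => (g : Equiv.Perm GolayPt) p) h3
      have h5 : (m : Equiv.Perm GolayPt) (e p) = e ((m : Equiv.Perm GolayPt) p) := h4
      rw [show (m : Equiv.Perm GolayPt) p = p from hm2, hep] at h5
      exact h5
    apply Subtype.ext
    apply eq_one_of_nine m.2
    have h2 : oᶜ ⊆ Finset.univ.filter fun p => (m : Equiv.Perm GolayPt) p = p := by
      intro x hx
      rw [Finset.mem_compl] at hx
      exact Finset.mem_filter.2 ⟨Finset.mem_univ _, h1 x hx⟩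
    have h3 := Finset.card_le_card h2
    rw [Finset.card_compl, card_pt, show o.card = 8 from ho.2] at h3
    omega
  · rw [card_fx ho]; norm_num
  · rw [card_GL42, card_MM ho hp]

/-- In the Mathieu group of degree 24 (the automorphism group of the length-24 binary Golay code, acting on the 24 coordinates), let z be an involution whose fixed points form an octad (the support of a code word of weight 8), and let Q be the largest normal 2-subgroup of the centralizer C of z. Then Q is extraspecial of order 2^7 with an elementary abelian subgroup of order 16 (plus type), Q is a large extraspecial 2-subgroup, and C is the split extension of Q by the special linear group of degree 3 over the field with two elements. -/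
theorem result (z : ↥Cfsg.M24) (hz : orderOf z = 2) (hfix : (Finset.univ.filter fun p : Cfsg.GolayPt => (z : Equiv.Perm Cfsg.GolayPt) p = p) ∈ Cfsg.octads) (Q : Subgroup ↥Cfsg.M24) (hQ : Q = (Cfsg.pCore 2 ↥(Subgroup.centralizer ({z} : Set ↥Cfsg.M24))).map (Subgroup.centralizer ({z} : Set ↥Cfsg.M24)).subtype) : Cfsg.IsExtraspecial 2 ↥Q ∧ Nat.card ↥Q = 2 ^ 7 ∧ (∃ E : Subgroup ↥Cfsg.M24, E ≤ Q ∧ Cfsg.IsElementaryAbelian 2 E ∧ Nat.card ↥E = 2 ^ 4) ∧ Cfsg.IsLargeExtraspecial Q ∧ ∃ K : Subgroup ↥Cfsg.M24, K ≤ Subgroup.centralizer ({z} : Set ↥Cfsg.M24) ∧ Q ⊓ K = ⊥ ∧ Q ⊔ K = Subgroup.centralizer ({z} : Set ↥Cfsg.M24) ∧ Nonempty (↥K ≃* Matrix.SpecialLinearGroup (Fin 3) (ZMod 2)) := by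
  obtain ⟨o, ho⟩ : ∃ o, o = (Finset.univ.filter fun p : Cfsg.GolayPt => (z : Equiv.Perm Cfsg.GolayPt) p = p) := ⟨_, rfl⟩
  rw [← ho] at hfix
  have hmo : ∀ x, x ∈ o ↔ (z : Equiv.Perm GolayPt) x = x := by
    intro x
    rw [ho, Finset.mem_filter]
    exact ⟨fun h => h.2, fun h => ⟨Finset.mem_univ _, h⟩⟩
  obtain ⟨p, hp⟩ := exists_pt hfix
  have hzU : z ∈ fx o := fun x hx => (hmo x).1 hx
  have hz1 : z ≠ 1 := by
    intro h1
    rw [h1, orderOf_one] at hz
    omega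
  have hC : ∀ c, c ∈ Subgroup.centralizer ({z} : Set ↥Cfsg.M24) ↔ c * z = z * c := by
    intro c
    rw [Subgroup.mem_centralizer_iff]
    exact ⟨fun h1 => (h1 z rfl).symm, fun h1 x hx => by rw [Set.mem_singleton_iff.1 hx]; exact h1.symm⟩
  have hP : ∀ c, c * z = z * c → ∃ u ∈ fx o, ∃ m ∈ MM o p, c = u * m := by
    intro c hc
    have hco : c • o = o := by
      rw [smul_eq_iff_mem]
      intro x
      rw [hmo, hmo]
      have h1 : (c : Equiv.Perm GolayPt) ((z : Equiv.Perm GolayPt) x) = (z : Equiv.Perm GolayPt) ((c : Equiv.Perm GolayPt) x) :=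
        congrArg (fun g : ↥M24 => (g : Equiv.Perm GolayPt) x) hc
      rw [← h1]
      exact (c : Equiv.Perm GolayPt).injective.eq_iff
    have hcp : (c : Equiv.Perm GolayPt) p ∉ o := by
      rw [smul_eq_iff_mem.1 hco p]; exact hp
    obtain ⟨e, he, heo, hep⟩ := ptw_trans hfix hp hcp
    have heo' : (⟨e, he⟩ : ↥M24) • o = o := fx_smul_self heo
    refine ⟨⟨e, he⟩, heo, (⟨e, he⟩ : ↥M24)⁻¹ * c, ⟨?_, ?_⟩, by group⟩
    · show ((⟨e, he⟩ : ↥M24)⁻¹ * c) • o = o
      rw [mul_smul, hco, inv_smul_eq_iff, heo']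
    · show ((⟨e, he⟩ : ↥M24)⁻¹ * c) • p = p
      rw [mul_smul, inv_smul_eq_iff]
      exact hep.symm
  obtain ⟨h1, h2, h3, h4, K, hK1, hK2, hK3, ⟨e1⟩⟩ :=
    CfsgLib.Hol28.main (holM hfix hp) hzU hz1 hP (n := 3) (by norm_num) (by rw [card_fx hfix]; norm_num) hC hQ
  obtain ⟨e2⟩ := CfsgLib.Hol28.GL_equiv_SL (n := Fin 3)
  exact ⟨h1, h2, h3, h4, K, hK1, hK2, hK3, ⟨e1.trans e2⟩⟩

end Cfsg.Agent.S5425
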