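import Cfsg.Statements.S2133
import Cfsg.Agent.S5425
import Cfsg.Agent.LibHolI28
import Cfsg.Agent.LibHolK28

set_option autoImplicit false
open Cfsg

namespace Cfsg.Agent.S2133

open CfsgLib.Golay CfsgLib.M24 CfsgLib.Restr28 CfsgLib.Blk28 CfsgLib.Trio28 MulAction
open scoped Pointwise

/-- The Mathieu group M₂₄ (the automorphism group of the length-24 binary code) has an involution whose centraliser is isomorphic to the centraliser of a transvection in SL(5, 2) (a group of shape 2^{1+6}:GL(3, 2)). -/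
theorem result (s : Matrix.SpecialLinearGroup (Fin 5) (ZMod 2)) (hs : (s : Matrix (Fin 5) (Fin 5) (ZMod 2)) = Matrix.transvection 0 1 1) : ∃ z : ↥Cfsg.M24, orderOf z = 2 ∧ Nonempty (↥(Subgroup.centralizer ({z} : Set ↥Cfsg.M24)) ≃* ↥(Subgroup.centralizer ({s} : Set (Matrix.SpecialLinearGroup (Fin 5) (ZMod 2))))) := by
  have ho : fset 8536111 ∈ octads := base_octad
  set o := fset 8536111 with hodef
  obtain ⟨p, hp⟩ := Cfsg.Agent.S5425.exists_pt ho
  have hcard : Nat.card ↥(fx o) = 16 := card_fx ho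
  obtain ⟨z, hzU, hz1⟩ : ∃ z ∈ fx o, z ≠ 1 := by
    by_contra hcon
    push Not at hcon
    have h1 : fx o = ⊥ := (Subgroup.eq_bot_iff_forall _).2 hcon
    rw [h1, Subgroup.card_bot] at hcard
    omega
  have hmo : ∀ x, x ∈ o ↔ (z : Equiv.Perm GolayPt) x = x := by
    intro x
    refine ⟨fun h => hzU x h, fun h => ?_⟩
    by_contra hx
    exact hz1 (fx_fix ho hx hzU h)
  have hP : ∀ c, c * z = z * c → ∃ u ∈ fx o, ∃ m ∈ Cfsg.Agent.S5425.MM o p, c = u * m := by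
    intro c hc
    have hco : c • o = o := by
      rw [Cfsg.Agent.S5425.smul_eq_iff_mem]
      intro x
      rw [hmo, hmo]
      have h1 : (c : Equiv.Perm GolayPt) ((z : Equiv.Perm GolayPt) x) = (z : Equiv.Perm GolayPt) ((c : Equiv.Perm GolayPt) x) :=
        congrArg (fun g : ↥M24 => (g : Equiv.Perm GolayPt) x) hc
      rw [← h1]
      exact (c : Equiv.Perm GolayPt).injective.eq_iff
    have hcp : (c : Equiv.Perm GolayPt) p ∉ o := by
      rw [Cfsg.Agent.S5425.smul_eq_iff_mem.1 hco p]; exact hp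
    obtain ⟨e, he, heo, hep⟩ := ptw_trans ho hp hcp
    have heo' : (⟨e, he⟩ : ↥M24) • o = o := fx_smul_self heo
    refine ⟨⟨e, he⟩, heo, (⟨e, he⟩ : ↥M24)⁻¹ * c, ⟨?_, ?_⟩, by group⟩
    · show ((⟨e, he⟩ : ↥M24)⁻¹ * c) • o = o
      rw [mul_smul, hco, inv_smul_eq_iff, heo']
    · show ((⟨e, he⟩ : ↥M24)⁻¹ * c) • p = p
      rw [mul_smul, inv_smul_eq_iff]
      exact hep.symm
  have hsm : s ∈ CfsgLib.Hol28.UU 3 := ⟨_, hs.trans CfsgLib.Hol28.z_eq⟩
  have hs1 : s ≠ 1 := by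
    intro h1
    have h2 : (s : Matrix (Fin 5) (Fin 5) (ZMod 2)) = 1 := by rw [h1]; rfl
    rw [hs, CfsgLib.Hol28.z_eq (n := 3), ← CfsgLib.Hol28.Tm_zero (n := 3)] at h2
    have h3 := congrFun (CfsgLib.Hol28.Tm_inj h2) 0
    rw [Pi.single_eq_same] at h3
    exact one_ne_zero h3
  obtain ⟨φ, hφ⟩ := CfsgLib.Hol28.Hol.exists_equiv (Cfsg.Agent.S5425.holM ho hp) (CfsgLib.Hol28.holSL 3)
    (by rw [hcard, CfsgLib.Hol28.card_UU]; norm_num) hzU hz1 hsm hs1
  have hzz : z * z = 1 := fx_sq ho z hzU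
  refine ⟨z, ?_, ?_⟩
  · exact orderOf_eq_prime (by rw [pow_two]; exact hzz) hz1
  · exact CfsgLib.Hol28.Hol.cent_iso (Cfsg.Agent.S5425.holM ho hp) (CfsgLib.Hol28.holSL 3) hzU hsm hP
      (fun c hc => CfsgLib.Hol28.par_dec hs hc) φ hφ

end Cfsg.Agent.S2133
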