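import Cfsg.Statements.S2162
import Cfsg.Agent.LibInv2bH13

set_option autoImplicit false
open Cfsg

namespace Cfsg.Agent.S2162

open Module LinearMap Submodule

theorem sq_zero {F : Type*} [Field F] [CharP F 2] {ι : Type*} [Fintype ι] [DecidableEq ι] (A : Matrix ι ι F) (hA : A * A = 1) :
    (A - 1) * (A - 1) = 0 := by
  have h2 : (2 : F) = 0 := CharTwo.two_eq_zero
  have h3 : (A - 1) * (A - 1) = A * A - (2 : F) • A + 1 := by
    rw [sub_mul, mul_sub, mul_sub, one_mul, mul_one, mul_one, two_smul]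
    abel
  rw [h3, hA, h2, zero_smul, sub_zero]
  ext i j
  rw [Matrix.add_apply, Matrix.zero_apply]
  exact CharTwo.add_self_eq_zero _

theorem sl_conj {F : Type*} [Field F] {n : ℕ} (a b : Matrix.SpecialLinearGroup (Fin n) F) (f : (Fin n → F) →ₗ[F] (Fin n → F))
    (hdet : LinearMap.det f = 1) (hf : ∀ x, f ((a : Matrix (Fin n) (Fin n) F).mulVec x) = (b : Matrix (Fin n) (Fin n) F).mulVec (f x)) :
    IsConj a b := by
  rw [isConj_iff]
  let C : Matrix.SpecialLinearGroup (Fin n) F := ⟨LinearMap.toMatrix' f, by rw [LinearMap.det_toMatrix', hdet]⟩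
  refine ⟨C, ?_⟩
  rw [mul_inv_eq_iff_eq_mul]
  apply Subtype.ext
  show LinearMap.toMatrix' f * (a : Matrix (Fin n) (Fin n) F) = (b : Matrix (Fin n) (Fin n) F) * LinearMap.toMatrix' f
  apply Matrix.toLin'.injective
  rw [Matrix.toLin'_mul, Matrix.toLin'_mul, Matrix.toLin'_toMatrix']
  apply LinearMap.ext
  intro x
  exact hf x

theorem rank_conj {F : Type*} [Field F] {n : ℕ} (a b : Matrix.SpecialLinearGroup (Fin n) F) (h : IsConj a b) :
    ((a : Matrix (Fin n) (Fin n) F) - 1).rank = ((b : Matrix (Fin n) (Fin n) F) - 1).rank := by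
  obtain ⟨c, hc⟩ := isConj_iff.1 h
  have h1 : (b : Matrix (Fin n) (Fin n) F) - 1 = (c : Matrix (Fin n) (Fin n) F) * ((a : Matrix (Fin n) (Fin n) F) - 1) * ((c⁻¹ : Matrix.SpecialLinearGroup (Fin n) F) : Matrix (Fin n) (Fin n) F) := by
    rw [← hc, mul_sub, sub_mul, mul_one, Matrix.SpecialLinearGroup.coe_mul, Matrix.SpecialLinearGroup.coe_mul]
    congr 1
    rw [← Matrix.SpecialLinearGroup.coe_mul, mul_inv_cancel]
    rfl
  rw [h1, Matrix.rank_mul_eq_left_of_isUnit_det, Matrix.rank_mul_eq_right_of_isUnit_det]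
  · rw [c.2]; exact isUnit_one
  · rw [(c⁻¹).2]; exact isUnit_one

theorem coe_sq {F : Type*} [Field F] {n : ℕ} (a : Matrix.SpecialLinearGroup (Fin n) F) (ha : orderOf a = 2) :
    (a : Matrix (Fin n) (Fin n) F) * (a : Matrix (Fin n) (Fin n) F) = 1 := by
  have h := pow_orderOf_eq_one a
  rw [ha, pow_two] at h
  rw [← Matrix.SpecialLinearGroup.coe_mul, h]
  rfl

theorem conj_of_rank {F : Type*} [Field F] [Fintype F] [CharP F 2] {n : ℕ} (a b : Matrix.SpecialLinearGroup (Fin n) F)
    (ha : orderOf a = 2) (hb : orderOf b = 2)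
    (hr : ((a : Matrix (Fin n) (Fin n) F) - 1).rank = ((b : Matrix (Fin n) (Fin n) F) - 1).rank) : IsConj a b := by
  have hA2 := sq_zero (a : Matrix (Fin n) (Fin n) F) (coe_sq a ha)
  have hB2 := sq_zero (b : Matrix (Fin n) (Fin n) F) (coe_sq b hb)
  have hr0 : 0 < ((a : Matrix (Fin n) (Fin n) F) - 1).rank := by
    rw [Nat.pos_iff_ne_zero]
    intro h0
    have h1 : (a : Matrix (Fin n) (Fin n) F) - 1 = 0 := by
      rw [Matrix.rank] at h0
      have h2 := Submodule.finrank_eq_zero.1 h0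
      rw [LinearMap.range_eq_bot] at h2
      apply Matrix.toLin'.injective
      rw [map_zero]
      exact h2
    rw [sub_eq_zero] at h1
    have h2 : a = 1 := Subtype.ext h1
    rw [h2, orderOf_one] at ha
    omega
  obtain ⟨f, hf1, hf2⟩ := CfsgLib.Inv2.exists_comm (fun x => FiniteField.isSquare_of_char_two (ringChar.eq F 2) x)
    (((a : Matrix (Fin n) (Fin n) F) - 1).mulVecLin) (((b : Matrix (Fin n) (Fin n) F) - 1).mulVecLin)
    (fun x => by rw [← LinearMap.comp_apply, ← Matrix.mulVecLin_mul, hA2, Matrix.mulVecLin_zero, LinearMap.zero_apply])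
    (fun x => by rw [← LinearMap.comp_apply, ← Matrix.mulVecLin_mul, hB2, Matrix.mulVecLin_zero, LinearMap.zero_apply]) hr hr0
  apply sl_conj a b f hf1
  intro x
  have h1 : (a : Matrix (Fin n) (Fin n) F).mulVec x = x + ((a : Matrix (Fin n) (Fin n) F) - 1).mulVecLin x := by
    rw [Matrix.mulVecLin_apply, Matrix.sub_mulVec, Matrix.one_mulVec]; abel
  have h2 : ∀ y, (b : Matrix (Fin n) (Fin n) F).mulVec y = y + ((b : Matrix (Fin n) (Fin n) F) - 1).mulVecLin y := by
    intro y
    rw [Matrix.mulVecLin_apply, Matrix.sub_mulVec, Matrix.one_mulVec]; abel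
  rw [h1, h2, map_add, hf2]

/-- Conjugacy of involutions in the special linear group over a finite field of characteristic two, in dimension at least 3: two elements of order 2 of SL_n(F) are conjugate in SL_n(F) exactly when the matrices a − 1 and b − 1 have the same rank (the rank of a − 1 is the dimension of the commutator space [V, a]). -/
theorem result {F : Type*} [Field F] [Fintype F] [CharP F 2] {n : ℕ} (hn : 3 ≤ n) (a b : Matrix.SpecialLinearGroup (Fin n) F) (ha : orderOf a = 2) (hb : orderOf b = 2) :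
    IsConj a b ↔ ((a : Matrix (Fin n) (Fin n) F) - 1).rank = ((b : Matrix (Fin n) (Fin n) F) - 1).rank := by
  exact ⟨rank_conj a b, conj_of_rank a b ha hb⟩

end Cfsg.Agent.S2162
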