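import Cfsg.Statements.S2163


set_option autoImplicit false
open Cfsg

namespace Cfsg.Agent.S2163

/-- Over a finite field of characteristic two and for n ≥ 3: for every ℓ with 1 ≤ ℓ and 2ℓ ≤ n, the matrix j_ℓ that is the identity plus the entries 1 in positions (n − ℓ + i, i) for i < ℓ (an identity block of size ℓ in the lower left corner) lies in SL_n(F), has order 2, and j_ℓ − 1 has rank ℓ. Together with the conjugacy criterion by rank, these matrices represent the conjugacy classes of involutions of SL_n(F). -/
theorem result {F : Type*} [Field F] [Fintype F] [CharP F 2] {n : ℕ} (hn : 3 ≤ n) (ℓ : ℕ) (h1 : 1 ≤ ℓ) (h2 : 2 * ℓ ≤ n) :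
    ∃ a : Matrix.SpecialLinearGroup (Fin n) F, (a : Matrix (Fin n) (Fin n) F) = 1 + Matrix.of (fun i j : Fin n => if j.val < ℓ ∧ i.val = j.val + (n - ℓ) then (1 : F) else 0) ∧ orderOf a = 2 ∧ ((a : Matrix (Fin n) (Fin n) F) - 1).rank = ℓ := by
  classical
  set N : Matrix (Fin n) (Fin n) F := Matrix.of (fun i j : Fin n => if j.val < ℓ ∧ i.val = j.val + (n - ℓ) then (1 : F) else 0) with hN
  have hNa : ∀ i j, N i j = if j.val < ℓ ∧ i.val = j.val + (n - ℓ) then (1 : F) else 0 := fun i j => rfl
  have hN2 : N * N = 0 := by
    ext i k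
    rw [Matrix.mul_apply, Matrix.zero_apply]
    apply Finset.sum_eq_zero
    intro j _
    rw [hNa, hNa]
    by_cases hj : j.val < ℓ ∧ i.val = j.val + (n - ℓ)
    · by_cases hk : k.val < ℓ ∧ j.val = k.val + (n - ℓ)
      · exfalso; omega
      · rw [if_neg hk, mul_zero]
    · rw [if_neg hj, zero_mul]
  have hdet : (1 + N).det = 1 := by
    rw [Matrix.det_of_lowerTriangular]
    · apply Finset.prod_eq_one
      intro i _
      rw [Matrix.add_apply, Matrix.one_apply_eq, hNa, if_neg (by omega), add_zero]
    · intro i j hij
      have hij' : i < j := hij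
      rw [Matrix.add_apply, Matrix.one_apply_ne (ne_of_lt hij'), hNa, if_neg, add_zero]
      rintro ⟨h3, h4⟩
      have : i.val < j.val := hij'
      omega
  have hnl : ∀ k : Fin ℓ, k.val + (n - ℓ) < n := fun k => by have := k.2; omega
  have hkl : ∀ k : Fin ℓ, k.val < n := fun k => by have := k.2; omega
  let f : Fin ℓ → Fin n := fun k => ⟨k.val + (n - ℓ), hnl k⟩
  let g : Fin ℓ → Fin n := fun k => ⟨k.val, hkl k⟩
  have hPQ : N = ((1 : Matrix (Fin n) (Fin n) F).submatrix id f) * ((1 : Matrix (Fin n) (Fin n) F).submatrix g id) := by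
    ext i j
    rw [Matrix.mul_apply, hNa]
    simp only [Matrix.submatrix_apply, id, Matrix.one_apply]
    by_cases hj : j.val < ℓ ∧ i.val = j.val + (n - ℓ)
    · rw [if_pos hj, Finset.sum_eq_single (⟨j.val, hj.1⟩ : Fin ℓ)]
      · rw [if_pos (Fin.ext hj.2), if_pos (Fin.ext rfl), mul_one]
      · intro k _ hk
        have h3 : g k ≠ j := by
          intro h; apply hk; apply Fin.ext
          have h9 := congrArg Fin.val h
          change k.val = j.val at h9
          exact h9
        rw [if_neg h3, mul_zero]
      · intro h; exact absurd (Finset.mem_univ _) h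
    · rw [if_neg hj]; symm
      apply Finset.sum_eq_zero
      intro k _
      by_cases h3 : i = f k
      · by_cases h4 : g k = j
        · exfalso; apply hj
          have h5 := congrArg Fin.val h3
          have h6 := congrArg Fin.val h4
          have h7 := k.2
          change i.val = k.val + (n - ℓ) at h5
          change k.val = j.val at h6
          omega
        · rw [if_neg h4, mul_zero]
      · rw [if_neg h3, zero_mul]
  have hsub : ((1 : Matrix (Fin n) (Fin n) F).submatrix f id) * N * ((1 : Matrix (Fin n) (Fin n) F).submatrix id g) = 1 := by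
    have hf : Function.Injective f := fun k l h => by
      have := congrArg Fin.val h
      change k.val + (n - ℓ) = l.val + (n - ℓ) at this
      exact Fin.ext (by omega)
    have hg : Function.Injective g := fun k l h => by
      have := congrArg Fin.val h
      change k.val = l.val at this
      exact Fin.ext this
    have e1 : ((1 : Matrix (Fin n) (Fin n) F).submatrix f id) * ((1 : Matrix (Fin n) (Fin n) F).submatrix id f) = 1 := by
      rw [← Matrix.submatrix_mul _ _ _ _ _ Function.bijective_id, one_mul, Matrix.submatrix_one _ hf]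
    have e2 : ((1 : Matrix (Fin n) (Fin n) F).submatrix g id) * ((1 : Matrix (Fin n) (Fin n) F).submatrix id g) = 1 := by
      rw [← Matrix.submatrix_mul _ _ _ _ _ Function.bijective_id, one_mul, Matrix.submatrix_one _ hg]
    rw [hPQ, ← Matrix.mul_assoc, e1, Matrix.one_mul, e2]
  have hrank : N.rank = ℓ := by
    apply le_antisymm
    · rw [hPQ]
      refine le_trans (Matrix.rank_mul_le_left _ _) ?_
      refine le_trans (Matrix.rank_le_width _) ?_
      exact le_rfl
    · have h3 : (1 : Matrix (Fin ℓ) (Fin ℓ) F).rank = ℓ := by rw [Matrix.rank_one, Fintype.card_fin]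
      rw [← hsub] at h3
      calc ℓ = _ := h3.symm
        _ ≤ _ := Matrix.rank_mul_le_left _ _
        _ ≤ _ := Matrix.rank_mul_le_right _ _
  refine ⟨⟨1 + N, hdet⟩, rfl, ?_, ?_⟩
  · apply orderOf_eq_prime
    · apply Subtype.ext
      change (1 + N) ^ 2 = 1
      rw [sq, add_mul, mul_add, mul_add, hN2]
      simp only [one_mul, mul_one, add_zero]
      have h2N : N + N = 0 := by
        ext i j
        exact CharTwo.add_self_eq_zero _
      rw [add_assoc, h2N, add_zero]
    · intro h
      have h3 := congrArg (fun x : Matrix.SpecialLinearGroup (Fin n) F => (x : Matrix (Fin n) (Fin n) F)) h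
      change 1 + N = 1 at h3
      have h4 : N = 0 := by simpa using h3
      rw [h4, Matrix.rank_zero] at hrank
      omega
  · change (1 + N - 1).rank = ℓ
    rw [add_sub_cancel_left]; exact hrank

end Cfsg.Agent.S2163
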