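import Cfsg.Statements.S2165
import Mathlib

set_option autoImplicit false
open Cfsg

namespace Cfsg.Agent.S2165

open Matrix

/-- the involution of the index set -/
def fi {n : ℕ} (ℓ : ℕ) (h2 : 2 * ℓ ≤ n) (i : Fin n) : Fin n :=
  if h : i.val < ℓ then ⟨i.val + (n - ℓ), by omega⟩ else
    if h' : n - ℓ ≤ i.val then ⟨i.val - (n - ℓ), by omega⟩ else i

theorem fi_val {n : ℕ} (ℓ : ℕ) (h2 : 2 * ℓ ≤ n) (i : Fin n) : (fi ℓ h2 i).val =
    if i.val < ℓ then i.val + (n - ℓ) else if n - ℓ ≤ i.val then i.val - (n - ℓ) else i.val := by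
  unfold fi
  split_ifs <;> rfl

theorem fi_fi {n : ℕ} (ℓ : ℕ) (h2 : 2 * ℓ ≤ n) (i : Fin n) : fi ℓ h2 (fi ℓ h2 i) = i := by
  apply Fin.ext
  rw [fi_val, fi_val]
  have := i.2
  split_ifs <;> omega

/-- the matrix -/
def mat {n : ℕ} (ℓ : ℕ) (F : Type*) [Field F] : Matrix (Fin n) (Fin n) F :=
  Matrix.of (fun i j : Fin n => if (j.val < ℓ ∧ i.val = j.val + (n - ℓ)) ∨ (i.val < ℓ ∧ j.val = i.val + (n - ℓ)) ∨ (i = j ∧ ℓ ≤ i.val ∧ i.val < n - ℓ) then (1 : F) else 0)

theorem mat_mulVec {n : ℕ} (ℓ : ℕ) (h2 : 2 * ℓ ≤ n) (F : Type*) [Field F] (v : Fin n → F) (i : Fin n) :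
    (mat ℓ F *ᵥ v) i = v (fi ℓ h2 i) := by
  rw [Matrix.mulVec, dotProduct, Finset.sum_eq_single (fi ℓ h2 i)]
  · have : mat ℓ F i (fi ℓ h2 i) = 1 := by
      unfold mat
      rw [Matrix.of_apply, if_pos]
      have h := fi_val ℓ h2 i
      have := i.2
      by_cases h1 : i.val < ℓ
      · right; left
        rw [if_pos h1] at h
        exact ⟨h1, h⟩
      · by_cases h3 : n - ℓ ≤ i.val
        · left
          rw [if_neg h1, if_pos h3] at h
          omega
        · right; right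
          rw [if_neg h1, if_neg h3] at h
          refine ⟨?_, by omega, by omega⟩
          apply Fin.ext; omega
    rw [this, one_mul]
  · intro j _ hj
    have : mat ℓ F i j = 0 := by
      unfold mat
      rw [Matrix.of_apply, if_neg]
      intro hcon
      apply hj
      apply Fin.ext
      rw [fi_val]
      have := i.2
      have := j.2
      rcases hcon with ⟨h3, h4⟩ | ⟨h3, h4⟩ | ⟨h3, h4, h5⟩
      · split_ifs <;> omega
      · split_ifs <;> omega
      · subst h3; split_ifs <;> omega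
    rw [this, zero_mul]
  · intro h; exact absurd (Finset.mem_univ _) h

theorem mat_sq {n : ℕ} (ℓ : ℕ) (h2 : 2 * ℓ ≤ n) (F : Type*) [Field F] : (mat ℓ F : Matrix (Fin n) (Fin n) F) * mat ℓ F = 1 := by
  apply Matrix.toLin'.injective
  apply LinearMap.ext
  intro v
  rw [Matrix.toLin'_mul, LinearMap.comp_apply, Matrix.toLin'_apply, Matrix.toLin'_apply, Matrix.toLin'_apply, Matrix.one_mulVec]
  funext i
  rw [mat_mulVec ℓ h2, mat_mulVec ℓ h2, fi_fi]

theorem mat_det {n : ℕ} (ℓ : ℕ) (h2 : 2 * ℓ ≤ n) (F : Type*) [Field F] [CharP F 2] : (mat ℓ F : Matrix (Fin n) (Fin n) F).det = 1 := by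
  have h := congrArg Matrix.det (mat_sq (n := n) ℓ h2 F)
  rw [Matrix.det_mul, Matrix.det_one] at h
  have h3 : (2 : F) = 0 := CharTwo.two_eq_zero
  have h4 : ((mat ℓ F : Matrix (Fin n) (Fin n) F).det - 1) ^ 2 = 0 := by
    linear_combination h + (1 - (mat ℓ F : Matrix (Fin n) (Fin n) F).det) * h3
  have h5 := pow_eq_zero_iff (two_ne_zero) |>.1 h4
  exact sub_eq_zero.1 h5

/-- parametrisation of the range of `a - 1` -/
def emb {n : ℕ} (ℓ : ℕ) (F : Type*) [Field F] (h2 : 2 * ℓ ≤ n) : (Fin ℓ → F) →ₗ[F] (Fin n → F) where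
  toFun c i := if h : i.val < ℓ then c ⟨i.val, h⟩ else if h' : n - ℓ ≤ i.val then - c ⟨i.val - (n - ℓ), by omega⟩ else 0
  map_add' x y := by
    ext i
    simp only [Pi.add_apply]
    split_ifs
    · rfl
    · ring
    · ring
  map_smul' a x := by
    ext i
    simp only [Pi.smul_apply, smul_eq_mul, RingHom.id_apply]
    split_ifs
    · rfl
    · ring
    · ring

theorem emb_apply {n : ℕ} (ℓ : ℕ) (F : Type*) [Field F] (h2 : 2 * ℓ ≤ n) (c : Fin ℓ → F) (i : Fin n) :
    emb ℓ F h2 c i = if h : i.val < ℓ then c ⟨i.val, h⟩ else if h' : n - ℓ ≤ i.val then - c ⟨i.val - (n - ℓ), by omega⟩ else 0 := rfl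

theorem mat_rank {n : ℕ} (ℓ : ℕ) (h2 : 2 * ℓ ≤ n) (F : Type*) [Field F] : ((mat ℓ F : Matrix (Fin n) (Fin n) F) - 1).rank = ℓ := by
  have hinj : Function.Injective (emb (n := n) ℓ F h2) := by
    intro x y h
    funext i
    have h1 := congrFun h ⟨i.val, by omega⟩
    rw [emb_apply, emb_apply, dif_pos i.2, dif_pos i.2] at h1
    exact h1
  have hr : LinearMap.range ((mat ℓ F : Matrix (Fin n) (Fin n) F) - 1).mulVecLin = LinearMap.range (emb (n := n) ℓ F h2) := by
    apply le_antisymm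
    · rintro _ ⟨v, rfl⟩
      refine ⟨fun i => v ⟨i.val + (n - ℓ), by omega⟩ - v ⟨i.val, by omega⟩, ?_⟩
      funext i
      rw [emb_apply, Matrix.mulVecLin_apply, Matrix.sub_mulVec, Matrix.one_mulVec, Pi.sub_apply, mat_mulVec ℓ h2]
      unfold fi
      have := i.2
      by_cases h1 : i.val < ℓ
      · rw [dif_pos h1, dif_pos h1]
      · by_cases h3 : n - ℓ ≤ i.val
        · rw [dif_neg h1, dif_pos h3, dif_neg h1, dif_pos h3, neg_sub]
          congr 2
          apply Fin.ext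
          show i.val - (n - ℓ) + (n - ℓ) = i.val
          omega
        · rw [dif_neg h1, dif_neg h3, dif_neg h1, dif_neg h3, sub_self]
    · rintro _ ⟨c, rfl⟩
      refine ⟨fun i => if h' : n - ℓ ≤ i.val then c ⟨i.val - (n - ℓ), by omega⟩ else 0, ?_⟩
      funext i
      rw [emb_apply, Matrix.mulVecLin_apply, Matrix.sub_mulVec, Matrix.one_mulVec, Pi.sub_apply, mat_mulVec ℓ h2]
      have := i.2
      have hf := fi_val ℓ h2 i
      by_cases h1 : i.val < ℓ
      · rw [if_pos h1] at hf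
        rw [dif_pos h1, dif_pos (by omega), dif_neg (by omega), sub_zero]
        congr 1
        apply Fin.ext
        show (fi ℓ h2 i).val - (n - ℓ) = i.val
        omega
      · by_cases h3 : n - ℓ ≤ i.val
        · rw [if_neg h1, if_pos h3] at hf
          rw [dif_neg h1, dif_pos h3, dif_neg (by omega), dif_pos h3, zero_sub]
        · rw [if_neg h1, if_neg h3] at hf
          rw [dif_neg h1, dif_neg h3, dif_neg (by omega), dif_neg h3, sub_zero]
  rw [Matrix.rank, hr, LinearMap.finrank_range_of_inj hinj, Module.finrank_fintype_fun_eq_card, Fintype.card_fin]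

theorem mat_herm {n : ℕ} (ℓ : ℕ) (h2 : 2 * ℓ ≤ n) (F : Type*) [Field F] (q : ℕ) (u v : Fin n → F) :
    Cfsg.hermForm n F q (mat ℓ F *ᵥ u) (mat ℓ F *ᵥ v) = Cfsg.hermForm n F q u v := by
  unfold Cfsg.hermForm
  simp only [mat_mulVec ℓ h2]
  exact Equiv.sum_comp (⟨fi ℓ h2, fi ℓ h2, fi_fi ℓ h2, fi_fi ℓ h2⟩ : Fin n ≃ Fin n) (fun i => u i * v i ^ q)

/-- In SU_n(q), q even, n ≥ 3 (matrices of determinant 1 over the field with q² elements preserving Σ u_i v_i^q): for every ℓ with 1 ≤ ℓ and 2ℓ ≤ n, the permutation matrix of the involution of {0, …, n−1} exchanging i and n − ℓ + i for each i < ℓ lies in SU_n(q), has order 2, and differs from the identity by a matrix of rank ℓ. So every rank between 1 and n/2 occurs for involutions of SU_n(q). -/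
theorem result {F : Type*} [Field F] [Fintype F] [CharP F 2] {n q : ℕ} (hF : Fintype.card F = q ^ 2) (hn : 3 ≤ n) (ℓ : ℕ) (h1 : 1 ≤ ℓ) (h2 : 2 * ℓ ≤ n) :
    ∃ a : ↥(Cfsg.SU n F q), (((a : Matrix.SpecialLinearGroup (Fin n) F) : Matrix (Fin n) (Fin n) F) = Matrix.of (fun i j : Fin n => if (j.val < ℓ ∧ i.val = j.val + (n - ℓ)) ∨ (i.val < ℓ ∧ j.val = i.val + (n - ℓ)) ∨ (i = j ∧ ℓ ≤ i.val ∧ i.val < n - ℓ) then (1 : F) else 0)) ∧ orderOf a = 2 ∧ ((((a : Matrix.SpecialLinearGroup (Fin n) F) : Matrix (Fin n) (Fin n) F)) - 1).rank = ℓ := by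
  have hmem : (⟨mat ℓ F, mat_det ℓ h2 F⟩ : Matrix.SpecialLinearGroup (Fin n) F) ∈ Cfsg.SU n F q := by
    intro u v
    exact mat_herm ℓ h2 F q u v
  refine ⟨⟨⟨mat ℓ F, mat_det ℓ h2 F⟩, hmem⟩, rfl, ?_, mat_rank ℓ h2 F⟩
  apply orderOf_eq_prime
  · rw [pow_two]
    apply Subtype.ext
    apply Subtype.ext
    exact mat_sq ℓ h2 F
  · intro h
    have h3 : (mat ℓ F : Matrix (Fin n) (Fin n) F) = 1 := congrArg (fun z : ↥(Cfsg.SU n F q) => ((z : Matrix.SpecialLinearGroup (Fin n) F) : Matrix (Fin n) (Fin n) F)) h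
    have h4 := mat_rank (n := n) ℓ h2 F
    rw [h3, sub_self, Matrix.rank_zero] at h4
    omega

end Cfsg.Agent.S2165
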