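import Cfsg.Statements.S2166
import Cfsg.Agent.LibInv2sH13

set_option autoImplicit false
open Cfsg

namespace Cfsg.Agent.S2166

open CfsgLib.Inv2 Cfsg.Agent.H22

theorem fwd {F : Type*} [Field F] [Fintype F] [CharP F 2] {m : ℕ} (a b : ↥(Matrix.symplecticGroup (Fin m) F)) (h : IsConj a b) :
    (Module.finrank F (LinearMap.range (nl (spToLin a))) = Module.finrank F (LinearMap.range (nl (spToLin b)))) ∧
    Nat.card {v // spB m F v (spToLin a v) = 0} = Nat.card {v // spB m F v (spToLin b v) = 0} := by
  obtain ⟨c, hc⟩ := isConj_iff.1 h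
  have h1 : ∀ x, spToLin c (spToLin a x) = spToLin b (spToLin c x) := by
    intro x
    have h2 : c * a = b * c := by rw [← hc]; group
    have h3 := congrArg (fun z => spToLin z x) h2
    simp only [map_mul] at h3
    exact h3
  constructor
  · have hmap : (LinearMap.range (nl (spToLin a))).map ((spToLin c : (Fin m ⊕ Fin m → F) ≃ₗ[F] (Fin m ⊕ Fin m → F)) : (Fin m ⊕ Fin m → F) →ₗ[F] (Fin m ⊕ Fin m → F)) = LinearMap.range (nl (spToLin b)) := by
      have hNc : ∀ x, spToLin c (nl (spToLin a) x) = nl (spToLin b) (spToLin c x) := by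
        intro x
        rw [nl_apply, nl_apply, map_sub, h1]
      ext y
      constructor
      · rintro ⟨_, ⟨x, rfl⟩, rfl⟩
        exact ⟨spToLin c x, (hNc x).symm⟩
      · rintro ⟨x, rfl⟩
        obtain ⟨z, rfl⟩ := (spToLin c).surjective x
        exact ⟨nl (spToLin a) z, ⟨z, rfl⟩, hNc z⟩
    rw [← hmap]
    exact (LinearEquiv.finrank_map_eq (spToLin c) _).symm
  · apply Nat.card_congr
    refine Equiv.subtypeEquiv (spToLin c).toEquiv ?_
    intro v
    show spB m F v (spToLin a v) = 0 ↔ spB m F (spToLin c v) (spToLin b (spToLin c v)) = 0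
    rw [← h1, spToLin_isometry]

/-- Conjugacy of involutions in the symplectic group Sp_{2m}(F), F a finite field of characteristic two, m ≥ 2 (Sp taken as the matrices A with A J Aᵀ = J, acting on column vectors, with the alternating form f(u, v) = u ⬝ (J v)). For an involution t write V(t) for the set of vectors v with f(v, t v) = 0 (a subspace). Two involutions a, b are conjugate in Sp_{2m}(F) exactly when a − 1 and b − 1 have the same rank and, in case that rank is even, V(a) and V(b) have the same number of elements. -/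
theorem result {F : Type*} [Field F] [Fintype F] [CharP F 2] {m : ℕ} (hm : 2 ≤ m) (a b : ↥(Matrix.symplecticGroup (Fin m) F)) (ha : orderOf a = 2) (hb : orderOf b = 2) :
    IsConj a b ↔ ((((a : ↥(Matrix.symplecticGroup (Fin m) F)) : Matrix (Fin m ⊕ Fin m) (Fin m ⊕ Fin m) F) - 1).rank = (((b : ↥(Matrix.symplecticGroup (Fin m) F)) : Matrix (Fin m ⊕ Fin m) (Fin m ⊕ Fin m) F) - 1).rank ∧
      (Even (((a : ↥(Matrix.symplecticGroup (Fin m) F)) : Matrix (Fin m ⊕ Fin m) (Fin m ⊕ Fin m) F) - 1).rank → Nat.card {v : Fin m ⊕ Fin m → F // Cfsg.sympForm m F v (Matrix.mulVec ((a : ↥(Matrix.symplecticGroup (Fin m) F)) : Matrix (Fin m ⊕ Fin m) (Fin m ⊕ Fin m) F) v) = 0} = Nat.card {v : Fin m ⊕ Fin m → F // Cfsg.sympForm m F v (Matrix.mulVec ((b : ↥(Matrix.symplecticGroup (Fin m) F)) : Matrix (Fin m ⊕ Fin m) (Fin m ⊕ Fin m) F) v) = 0})) := by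
  have hsq : ∀ x : F, IsSquare x := fun x => FiniteField.isSquare_of_char_two (ringChar.eq F 2) x
  rw [sp_card, sp_card, sp_rank, sp_rank]
  constructor
  · intro h
    obtain ⟨h1, h2⟩ := fwd a b h
    exact ⟨h1, fun _ => h2⟩
  · rintro ⟨h1, h2⟩
    have h3 : (∀ v, spB m F v (nl (spToLin a) v) = 0) ↔ ∀ v, spB m F v (nl (spToLin b) v) = 0 := by
      by_cases he : Even (Module.finrank F (LinearMap.range (nl (spToLin a))))
      · exact card_iso_iff (spB m F) hsq spB_isAlt (spToLin a) (spToLin b) (spToLin_isometry a) (spToLin_isometry b)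
          (sp_invol ha) (sp_invol hb) (h2 he)
      · constructor
        · intro h
          exact absurd (even_of_zero (spB m F) spB_isAlt spB_nondeg (spToLin a) (spToLin_isometry a) (sp_invol ha) h) he
        · intro h
          rw [h1] at he
          exact absurd (even_of_zero (spB m F) spB_isAlt spB_nondeg (spToLin b) (spToLin_isometry b) (sp_invol hb) h) he
    obtain ⟨g, hg, hgT⟩ := alt_conj (spB m F) hsq spB_isAlt spB_nondeg (spToLin a) (spToLin b) (spToLin_isometry a) (spToLin_isometry b)
          (sp_invol ha) (sp_invol hb) h1 h3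
    obtain ⟨A, rfl⟩ := exists_spToLin g hg
    rw [isConj_iff]
    refine ⟨A, ?_⟩
    rw [mul_inv_eq_iff_eq_mul]
    apply spToLin_injective
    rw [map_mul, map_mul, hgT]

end Cfsg.Agent.S2166
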