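import Cfsg.Statements.S2167
import Cfsg.Agent.LibInv2sH13

set_option autoImplicit false
open Cfsg

namespace Cfsg.Agent.S2167

open CfsgLib.Inv2 Cfsg.Agent.H22

/-- For an involution t of the symplectic group Sp_{2m}(F), m ≥ 2, F a finite field of characteristic two (matrices A with A J Aᵀ = J acting on column vectors, alternating form f(u, v) = u ⬝ (J v)): the set V(t) of vectors v with f(v, t v) = 0 has either q^{2m} or q^{2m−1} elements, q the order of F (it is a subspace of codimension at most 1), and if it is the whole space then t − 1 has even rank. -/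
theorem result {F : Type*} [Field F] [Fintype F] [CharP F 2] {m : ℕ} (hm : 2 ≤ m) (a : ↥(Matrix.symplecticGroup (Fin m) F)) (ha : orderOf a = 2) :
    (Nat.card {v : Fin m ⊕ Fin m → F // Cfsg.sympForm m F v (Matrix.mulVec ((a : ↥(Matrix.symplecticGroup (Fin m) F)) : Matrix (Fin m ⊕ Fin m) (Fin m ⊕ Fin m) F) v) = 0} = Fintype.card F ^ (2 * m) ∨ Nat.card {v : Fin m ⊕ Fin m → F // Cfsg.sympForm m F v (Matrix.mulVec ((a : ↥(Matrix.symplecticGroup (Fin m) F)) : Matrix (Fin m ⊕ Fin m) (Fin m ⊕ Fin m) F) v) = 0} * Fintype.card F = Fintype.card F ^ (2 * m)) ∧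
    ((∀ v : Fin m ⊕ Fin m → F, Cfsg.sympForm m F v (Matrix.mulVec ((a : ↥(Matrix.symplecticGroup (Fin m) F)) : Matrix (Fin m ⊕ Fin m) (Fin m ⊕ Fin m) F) v) = 0) → Even (((a : ↥(Matrix.symplecticGroup (Fin m) F)) : Matrix (Fin m ⊕ Fin m) (Fin m ⊕ Fin m) F) - 1).rank) := by
  have hsq : ∀ x : F, IsSquare x := fun x => FiniteField.isSquare_of_char_two (ringChar.eq F 2) x
  have hV : Nat.card (Fin m ⊕ Fin m → F) = Fintype.card F ^ (2 * m) := by
    rw [Nat.card_eq_fintype_card, Fintype.card_fun, Fintype.card_sum, Fintype.card_fin]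
    congr 1; omega
  rw [sp_card]
  constructor
  · rcases card_iso_set (spB m F) hsq spB_isAlt (spToLin a) (spToLin_isometry a) (sp_invol ha) with ⟨_, h⟩ | ⟨_, h⟩
    · left; rw [h, hV]
    · right
      rw [Nat.card_eq_fintype_card (α := F)] at h
      rw [h, hV]
  · intro h
    rw [sp_rank]
    apply even_of_zero (spB m F) spB_isAlt spB_nondeg (spToLin a) (spToLin_isometry a) (sp_invol ha)
    intro v
    rw [nl_apply, map_sub, spB_isAlt v, sub_zero, spB_apply, spToLin_apply]
    exact h v

end Cfsg.Agent.S2167
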