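import Cfsg.Statements.S2173
import Cfsg.Agent.LibInv2mH13

set_option autoImplicit false
open Cfsg

namespace Cfsg.Agent.S2173

open scoped Matrix

theorem aux {F : Type*} [Field F] [Fintype F] [CharP F 2] {k : ℕ} (hk : 3 ≤ k) (c d : F)
    (hcd : ∀ z₁ z₂ : F, z₁ ^ 2 + c * z₁ * z₂ + d * z₂ ^ 2 = 0 → z₁ = 0 ∧ z₂ = 0)
    {Q0 : ((Fin k ⊕ Fin k) ⊕ Fin 2 → F) → F} (hQ0 : ⇑(Cfsg.Agent.H22.qMinus k F c d) = Q0)
    (t s : ↥(Cfsg.isometryGroup F Q0)) (ht : orderOf t = 2) (hconj : IsConj t s) :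
    ∃ g ∈ Cfsg.Omega F Q0, g * t * g⁻¹ = s := by
  subst hQ0
  have h5 : 5 ≤ Fintype.card ((Fin k ⊕ Fin k) ⊕ Fin 2) := by simp only [Fintype.card_sum, Fintype.card_fin]; omega
  have h6 : Fintype.card ((Fin k ⊕ Fin k) ⊕ Fin 2) = 2 * (k + 1) := by simp only [Fintype.card_sum, Fintype.card_fin]; omega
  refine CfsgLib.Inv2.omega_conj_of_ne _ (Cfsg.Agent.H22.nondeg_qMinus k c d hcd) h5 h6 t s ht hconj ?_
  rintro ⟨h1, h2⟩
  refine CfsgLib.Inv2.qMinus_TS c d hcd (W := LinearMap.range (CfsgLib.Inv2.nl (Cfsg.Agent.H22.oIso (Cfsg.Agent.H22.qMinus k F c d) t).1)) ?_ ?_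
  · rintro _ ⟨v, rfl⟩
    rw [← CfsgLib.Inv2.q_add_mulVec]
    exact h2 v
  · rw [← CfsgLib.Inv2.rank_nl]
    exact h1

/-- For the quadratic form Σ x_i y_i + (z₁² + c z₁ z₂ + d z₂²) in dimension 2m with anisotropic binary part over a finite field F of characteristic two, m ≥ 4 (minus type): two involutions of the commutator subgroup Ω that are conjugate in the full isometry group O are conjugate by an element of Ω (no class of involutions of O inside Ω splits). -/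
theorem result {F : Type*} [Field F] [Fintype F] [CharP F 2] {m : ℕ} (hm : 4 ≤ m) (c d : F) (hcd : ∀ z₁ z₂ : F, z₁ ^ 2 + c * z₁ * z₂ + d * z₂ ^ 2 = 0 → z₁ = 0 ∧ z₂ = 0) (t s : ↥(Cfsg.isometryGroup F (Cfsg.quadFormMinus (m - 1) F c d))) (ht : orderOf t = 2) (hs : orderOf s = 2) (htO : t ∈ Cfsg.Omega F (Cfsg.quadFormMinus (m - 1) F c d)) (hsO : s ∈ Cfsg.Omega F (Cfsg.quadFormMinus (m - 1) F c d)) (hconj : IsConj t s) :
    ∃ g ∈ Cfsg.Omega F (Cfsg.quadFormMinus (m - 1) F c d), g * t * g⁻¹ = s := by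
  exact aux (by omega) c d hcd (Cfsg.Agent.H22.coe_qMinus (m - 1) c d) t s ht hconj

end Cfsg.Agent.S2173
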