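import Cfsg.Statements.S2178
import Mathlib
import Cfsg.Agent.LibChevCent
-- import your own Cfsg.Agent.* helpers here

set_option autoImplicit false
open Cfsg

namespace Cfsg.Agent.S2178

open CfsgLib.Chev in
theorem aux {F : Type*} [Field F] {D : Cfsg.Lie.ChevalleyDatum} {T : Tb} (g : Good3 D T) (a b c : ℕ) :
    D.posUnipotent F ⊔ Subgroup.closure {x | ∃ s ∈ [a, b, c], ∃ t : F, x = g.X s t} =
    D.posUnipotent F ⊔ D.rootSubgroup F a ⊔ D.rootSubgroup F b ⊔ D.rootSubgroup F c := by
  have h : ∀ s (t : F), g.X s t ∈ D.rootSubgroup F s := fun s t => Subgroup.subset_closure ⟨t, rfl⟩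
  apply le_antisymm
  · apply sup_le
    · exact le_sup_of_le_left (le_sup_of_le_left le_sup_left)
    · rw [Subgroup.closure_le]
      rintro _ ⟨s, hs, t, rfl⟩
      simp only [List.mem_cons, List.not_mem_nil, or_false] at hs
      rcases hs with rfl | rfl | rfl
      · exact Subgroup.mem_sup_left (Subgroup.mem_sup_left (Subgroup.mem_sup_right (h _ _)))
      · exact Subgroup.mem_sup_left (Subgroup.mem_sup_right (h _ _))
      · exact Subgroup.mem_sup_right (h _ _)
  · have h2 : ∀ s ∈ [a, b, c], D.rootSubgroup F s ≤ D.posUnipotent F ⊔ Subgroup.closure {x | ∃ s ∈ [a, b, c], ∃ t : F, x = g.X s t} := by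
      intro s hs
      unfold Cfsg.Lie.ChevalleyDatum.rootSubgroup
      rw [Subgroup.closure_le]
      rintro x ⟨t, ht⟩
      rw [g.eq_X ht]
      exact Subgroup.mem_sup_right (Subgroup.subset_closure ⟨s, hs, t, rfl⟩)
    exact sup_le (sup_le (sup_le le_sup_left (h2 a (by simp))) (h2 b (by simp))) (h2 c (by simp))

/-- Centralizers of the long and the short root involutions in the Chevalley group G of type F₄ over a finite field F of characteristic two (this problem's root numbering for type F₄, from the Chevalley data module: fundamental roots p₁, p₂ short, p₃, p₄ long, with indices 33, 27, 25, 24, their negatives 14, 20, 22, 23; highest root 47, highest short root 44; U the subgroup generated by the positive root subgroups). For an element t of G with matrix x_47(1): the centralizer of t in G is the subgroup generated by U and the root subgroups X_{−p₁}, X_{−p₂}, X_{−p₃} (the unipotent radical of the maximal parabolic subgroup whose Levi factor has fundamental roots p₁, p₂, p₃, together with that Levi factor's root subgroups;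 the Levi factor is of type C₃). For an element u of G with matrix x_44(1): the centralizer of u in G is generated by U and X_{−p₂}, X_{−p₃}, X_{−p₄} (the same construction for the Levi factor with fundamental roots p₂, p₃, p₄, of type B₃). -/
theorem result {F : Type*} [Field F] [Fintype F] [CharP F 2] (t u : GL Cfsg.Lie.chevF4.Idx F) (ht : (t : Matrix Cfsg.Lie.chevF4.Idx Cfsg.Lie.chevF4.Idx F) = Cfsg.Lie.chevF4.x F 47 1) (hu : (u : Matrix Cfsg.Lie.chevF4.Idx Cfsg.Lie.chevF4.Idx F) = Cfsg.Lie.chevF4.x F 44 1) :
    Cfsg.Lie.chevF4.group F ⊓ Subgroup.centralizer {t} = Cfsg.Lie.chevF4.posUnipotent F ⊔ Cfsg.Lie.chevF4.rootSubgroup F 14 ⊔ Cfsg.Lie.chevF4.rootSubgroup F 20 ⊔ Cfsg.Lie.chevF4.rootSubgroup F 22 ∧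
    Cfsg.Lie.chevF4.group F ⊓ Subgroup.centralizer {u} = Cfsg.Lie.chevF4.posUnipotent F ⊔ Cfsg.Lie.chevF4.rootSubgroup F 20 ⊔ Cfsg.Lie.chevF4.rootSubgroup F 22 ⊔ Cfsg.Lie.chevF4.rootSubgroup F 23 := by
  have g := CfsgLib.Chev.good3_F4
  constructor
  · rw [g.eq_X ht, g.cent_chk (F := F) (i0 := 3) (L := [14, 20, 22]) (by decide +kernel), aux]
  · rw [g.eq_X hu, g.cent_chk (F := F) (i0 := 0) (L := [20, 22, 23]) (by decide +kernel), aux]

end Cfsg.Agent.S2178
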