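import Cfsg.Statements.S2179
import Mathlib
import Cfsg.Agent.LibF4C5

set_option autoImplicit false
set_option linter.all false
open Cfsg

namespace Cfsg.Agent.S2179

open CfsgLib.Chev CfsgLib.F4C in
theorem rs {F : Type*} [Field F] (s : ℕ) (t : F) : good3_F4.X s t ∈ Cfsg.Lie.chevF4.rootSubgroup F s :=
  Subgroup.subset_closure ⟨t, rfl⟩

open CfsgLib.Chev CfsgLib.F4C in
theorem rs_le {F : Type*} [Field F] (s : ℕ) (K : Subgroup (GL Cfsg.Lie.chevF4.Idx F)) (h : ∀ t : F, good3_F4.X s t ∈ K) :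
    Cfsg.Lie.chevF4.rootSubgroup F s ≤ K := by
  unfold Cfsg.Lie.ChevalleyDatum.rootSubgroup
  rw [Subgroup.closure_le]
  rintro x ⟨t, ht⟩
  rw [good3_F4.eq_X ht]
  exact h t

/-- Centralizers of the two remaining classes of involutions in the Chevalley group G of type F₄ over a finite field F of characteristic two (this problem's root numbering for type F₄, from the Chevalley data module: p₁, p₂ short, p₃, p₄ long with indices 33, 27, 25, 24 and negatives 14, 20, 22, 23; U generated by the positive root subgroups). For an element of G with matrix x_47(1)x_44(1) (highest root times highest short root): its centralizer in G is generated by U, X_{−p₂} and X_{−p₃}. For an element of G with matrix x_39(1)x_45(1) (roots (1,2,2,1) and (2,4,2,1), an orthogonal short/long pair): its centralizer in G is generated by X_{p₁}, X_{−p₁}, X_{p₄}, X_{−p₄} and the root subgroups of all positive roots other than p₂ (27), p₃ (25), p₁ + p₂ (34) and p₃ + p₄ (26). -/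
theorem result {F : Type*} [Field F] [Fintype F] [CharP F 2] (w v : GL Cfsg.Lie.chevF4.Idx F) (hw : (w : Matrix Cfsg.Lie.chevF4.Idx Cfsg.Lie.chevF4.Idx F) = Cfsg.Lie.chevF4.x F 47 1 * Cfsg.Lie.chevF4.x F 44 1) (hv : (v : Matrix Cfsg.Lie.chevF4.Idx Cfsg.Lie.chevF4.Idx F) = Cfsg.Lie.chevF4.x F 39 1 * Cfsg.Lie.chevF4.x F 45 1) :
    Cfsg.Lie.chevF4.group F ⊓ Subgroup.centralizer {w} = Cfsg.Lie.chevF4.posUnipotent F ⊔ Cfsg.Lie.chevF4.rootSubgroup F 20 ⊔ Cfsg.Lie.chevF4.rootSubgroup F 22 ∧
    Cfsg.Lie.chevF4.group F ⊓ Subgroup.centralizer {v} = Cfsg.Lie.chevF4.rootSubgroup F 33 ⊔ Cfsg.Lie.chevF4.rootSubgroup F 14 ⊔ Cfsg.Lie.chevF4.rootSubgroup F 24 ⊔ Cfsg.Lie.chevF4.rootSubgroup F 23 ⊔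
      Subgroup.closure {g : GL Cfsg.Lie.chevF4.Idx F | ∃ (r : ℕ) (c : F), Cfsg.Lie.chevF4.IsPosRoot r ∧ r ∉ [27, 25, 34, 26] ∧ (g : Matrix Cfsg.Lie.chevF4.Idx Cfsg.Lie.chevF4.Idx F) = Cfsg.Lie.chevF4.x F r c} := by
  have hn := CfsgLib.F4C.n_F4
  have hl := CfsgLib.F4C.l_F4
  obtain ⟨s0, s1, s2, s3⟩ := CfsgLib.F4C.b12
  constructor
  · have ew : w = CfsgLib.Chev.good3_F4.X 47 (1 : F) * CfsgLib.Chev.good3_F4.X 44 1 := by
      apply Units.ext
      rw [hw, Units.val_mul, CfsgLib.Chev.Good3.X_val, CfsgLib.Chev.Good3.X_val]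
    rw [ew, CfsgLib.F4C.cent47]
    apply le_antisymm
    · apply sup_le
      · exact le_sup_of_le_left le_sup_left
      · rw [Subgroup.closure_le]
        rintro x ⟨i, hi, hil, t, rfl⟩
        rcases hi with rfl | rfl
        · rw [s1, hn]
          exact Subgroup.mem_sup_left (Subgroup.mem_sup_right (rs 20 t))
        · rw [s2, hn]
          exact Subgroup.mem_sup_right (rs 22 t)
    · apply sup_le (sup_le le_sup_left ?_) ?_
      · apply rs_le
        intro t
        apply Subgroup.mem_sup_right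
        apply Subgroup.subset_closure
        refine ⟨1, Or.inl rfl, by omega, t, ?_⟩
        rw [s1, hn]
      · apply rs_le
        intro t
        apply Subgroup.mem_sup_right
        apply Subgroup.subset_closure
        refine ⟨2, Or.inr rfl, by omega, t, ?_⟩
        rw [s2, hn]
  · have ev : v = CfsgLib.F4C.vv F := by
      apply Units.ext
      rw [hv]
      unfold CfsgLib.F4C.vv
      rw [Units.val_mul, CfsgLib.Chev.Good3.X_val, CfsgLib.Chev.Good3.X_val]
    rw [ev, CfsgLib.F4C.cent_main]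
    have hE : ∀ s, CfsgLib.F4C.Es s → ∀ t : F, CfsgLib.Chev.good3_F4.X s t ∈ CfsgLib.F4C.E F := fun s hs t =>
      Subgroup.subset_closure ⟨s, t, hs, rfl⟩
    apply le_antisymm
    · conv_lhs => unfold CfsgLib.F4C.E
      rw [Subgroup.closure_le]
      rintro x ⟨s, t, hs, rfl⟩
      rcases hs with rfl | rfl | ⟨h1, h2, h3, h4, h5, h6⟩
      · exact Subgroup.mem_sup_left (Subgroup.mem_sup_left (Subgroup.mem_sup_left (Subgroup.mem_sup_right (rs 14 t))))
      · exact Subgroup.mem_sup_left (Subgroup.mem_sup_right (rs 23 t))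
      · apply Subgroup.mem_sup_right
        apply Subgroup.subset_closure
        refine ⟨s, t, CfsgLib.Chev.good3_F4.isPos_iff.2 ⟨by omega, by omega⟩, ?_, CfsgLib.Chev.Good3.X_val _ _ _⟩
        simp only [List.mem_cons, List.not_mem_nil, or_false]
        omega
    · refine sup_le (sup_le (sup_le (sup_le ?_ ?_) ?_) ?_) ?_
      · exact rs_le _ _ (hE 33 (Or.inr (Or.inr (by decide))))
      · exact rs_le _ _ (hE 14 (Or.inl rfl))
      · exact rs_le _ _ (hE 24 (Or.inr (Or.inr (by decide))))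
      · exact rs_le _ _ (hE 23 (Or.inr (Or.inl rfl)))
      · rw [Subgroup.closure_le]
        rintro x ⟨r, c, hr, hr2, hx⟩
        rw [CfsgLib.Chev.good3_F4.isPos_iff] at hr
        rw [CfsgLib.Chev.good3_F4.eq_X hx]
        simp only [List.mem_cons, List.not_mem_nil, or_false] at hr2
        exact hE r (Or.inr (Or.inr ⟨by omega, by omega, by omega, by omega, by omega, by omega⟩)) c

end Cfsg.Agent.S2179
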