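import Cfsg.Statements.S2181
import Cfsg.Agent.LibInvE7

set_option autoImplicit false
open Cfsg

namespace Cfsg.Agent.S2181

/-- The Chevalley group of type E₇ over a finite field of characteristic two (the matrix group generated by the root elements) has exactly five conjugacy classes of elements of order 2. -/
theorem result {F : Type*} [Field F] [Fintype F] [CharP F 2] :
    (ConjClasses.mk '' {g : ↥(Cfsg.Lie.chevE7.group F) | orderOf g = 2}).ncard = 5 := by

  exact CfsgLib.Inv.count CfsgLib.Chev.good3_E7 (R' := CfsgLib.Inv.RE7) (W := 256) CfsgLib.Inv.cl_E7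
    (fun b hb => CfsgLib.Inv.sq_E7 b (List.mem_cons_of_mem _ hb))
    (CfsgLib.Inv.hne_of CfsgLib.Chev.good3_E7 (L := CfsgLib.Inv.LE7) rfl CfsgLib.Inv.rk_E7 (by decide))
    (CfsgLib.Inv.hpair_of CfsgLib.Chev.good3_E7 (L := CfsgLib.Inv.LE7) rfl CfsgLib.Inv.rk_E7 (by decide)) (by decide)

end Cfsg.Agent.S2181
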