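import Cfsg.Statements.S2182
import Cfsg.Agent.LibInvTE6b

set_option autoImplicit false
open Cfsg

namespace Cfsg.Agent.S2182

theorem ppow {K : Type*} [Field K] [Fintype K] [CharP K 2] {q r : ℕ} (hr : r ≠ 0) (hK : Fintype.card K = q ^ r) : IsPrimePow q := by
  haveI : Fact (Nat.Prime 2) := ⟨Nat.prime_two⟩
  obtain ⟨n, hp, hcard⟩ := FiniteField.card K 2
  have h1 : q ^ r = 2 ^ (n : ℕ) := by rw [← hK, hcard]
  have h2 : q ∣ 2 ^ (n : ℕ) := by rw [← h1]; exact dvd_pow_self q hr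
  obtain ⟨k, _, hk⟩ := (Nat.dvd_prime_pow Nat.prime_two).1 h2
  rw [isPrimePow_nat_iff]
  refine ⟨2, k, Nat.prime_two, ?_, hk.symm⟩
  rcases Nat.eq_zero_or_pos k with h | h
  · exfalso
    rw [h, pow_zero] at hk
    rw [hk, one_pow] at h1
    have : 1 < 2 ^ (n : ℕ) := Nat.one_lt_two_pow n.ne_zero
    omega
  · exact h


/-- The twisted group ²E₆(q), q even, realised inside the Chevalley group of type E₆ over the field K with q² elements, has exactly three conjugacy classes of elements of order 2. -/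
theorem result {K : Type*} [Field K] [Fintype K] [CharP K 2] (q : ℕ) (hK : Fintype.card K = q ^ 2) :
    (ConjClasses.mk '' {g : ↥(Cfsg.Lie.twistedE6 K q) | orderOf g = 2}).ncard = 3 := by

  have hp := ppow (by norm_num) hK
  obtain ⟨f, hf, R⟩ := CfsgLib.Chev.TwE6.exists_R hp hK
  have hmem : ∀ b ∈ CfsgLib.Inv.RE6t, b ∈ [] :: CfsgLib.Inv.RTE6 := by decide
  exact CfsgLib.Inv.countT R (R' := CfsgLib.Inv.RE6t) (W := 128) (CfsgLib.Inv.cl_TE6' R hK hp.one_lt hf)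
    (fun b hb => CfsgLib.Inv.sq_TE6 b (hmem b hb)) (fun b hb => CfsgLib.Inv.mem_TE6 b (hmem b hb))
    (CfsgLib.Inv.hne_of CfsgLib.Chev.good3_E6 (L := CfsgLib.Inv.LE6t) rfl
      (fun p hp => CfsgLib.Inv.rk_TE6 p ((show ∀ p ∈ CfsgLib.Inv.LE6t, p ∈ CfsgLib.Inv.LTE6 by decide) p hp)) (by decide))
    (CfsgLib.Inv.hpair_of CfsgLib.Chev.good3_E6 (L := CfsgLib.Inv.LE6t) rfl
      (fun p hp => CfsgLib.Inv.rk_TE6 p ((show ∀ p ∈ CfsgLib.Inv.LE6t, p ∈ CfsgLib.Inv.LTE6 by decide) p hp)) (by decide)) (by decide)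

end Cfsg.Agent.S2182
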