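import Cfsg.Statements.S2184
import Cfsg.Agent.LibInvTF4d

set_option autoImplicit false
open Cfsg

namespace Cfsg.Agent.S2184

/-- The twisted group ²F₄(q), q = 2^(2m+1) with m ≥ 0 (realised inside the Chevalley group of type F₄ over the field K with q elements, θ the 2^m-th power map), has exactly two conjugacy classes of elements of order 2; and so does the Tits group, the commutator subgroup of ²F₄(2). -/
theorem result {K : Type*} [Field K] [Fintype K] (m : ℕ) (hK : Fintype.card K = 2 ^ (2 * m + 1)) :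
    (ConjClasses.mk '' {g : ↥(Cfsg.Lie.twistedF4 K (2 ^ m)) | orderOf g = 2}).ncard = 2 ∧ (ConjClasses.mk '' {g : Cfsg.Lie.TitsGroup | orderOf g = 2}).ncard = 2 := by

  refine ⟨?_, CfsgLib.Inv.tits_count⟩
  have : Fact (Nat.Prime 2) := ⟨Nat.prime_two⟩
  have : CharP K 2 := charP_of_card_eq_prime_pow hK
  obtain ⟨f, hf⟩ := CfsgLib.Chev.exists_frobp K 2 m
  have R := CfsgLib.Chev.TwF4x.R hf hK
  exact CfsgLib.Inv.countT R (R' := CfsgLib.Inv.RTF4) (W := 64) (CfsgLib.Inv.cl_TF4 R)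
    (fun b hb => CfsgLib.Inv.sq_TF4 b (List.mem_cons_of_mem _ hb)) (fun b hb => CfsgLib.Inv.mem_TF4 b (List.mem_cons_of_mem _ hb))
    (CfsgLib.Inv.hne_of CfsgLib.Chev.good3_F4 (L := CfsgLib.Inv.LTF4) rfl CfsgLib.Inv.rk_TF4 (by decide))
    (CfsgLib.Inv.hpair_of CfsgLib.Chev.good3_F4 (L := CfsgLib.Inv.LTF4) rfl CfsgLib.Inv.rk_TF4 (by decide)) (by decide)

end Cfsg.Agent.S2184
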