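import Cfsg.Statements.S2186
import Mathlib
import Cfsg.Agent.LibChevPair
-- import your own Cfsg.Agent.* helpers here

set_option autoImplicit false
open Cfsg

namespace Cfsg.Agent.S2186

open CfsgLib.Chev in
theorem aux {F : Type*} [Field F] [CharP F 2] {D : Cfsg.Lie.ChevalleyDatum} {T : Tb} (g : Good3 D T)
    (hn : 0 < T.n)
    (h : T.chkPr (T.n - 1) = true) (h' : allB T.n (fun s => !Nat.ble (T.n / 2) s || T.chkEv (T.n - 1) s) = true)
    (x : GL D.Idx F) (hx : x ∈ D.group F) :
  IsPGroup 2 ↥(D.rootSubgroup F (D.nroots - 1) ⊔ (D.rootSubgroup F (D.nroots - 1)).map (MulAut.conj x).toMonoidHom) ∨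
    ∃ h ∈ D.group F, (D.rootSubgroup F (D.nroots - 1) ⊔ (D.rootSubgroup F (D.nroots - 1)).map (MulAut.conj x).toMonoidHom).map (MulAut.conj h).toMonoidHom = D.rootSubgroup F (D.nroots - 1) ⊔ D.rootSubgroup F 0 := by
  have := g.two_conj (p := 2) (r := T.n - 1) (by omega) h ?_ hx
  · have e : T.n - 1 - (T.n - 1) = 0 := by omega
    rw [e] at this
    have e2 : D.rootSubgroup F (D.nroots - 1) = D.rootSubgroup F (T.n - 1) := congrArg (fun k => D.rootSubgroup F (k - 1)) g.hn
    rw [e2]
    exact this
  · intro u hu t
    have h1 : u * g.X (T.n - 1) t = g.X (T.n - 1) t * u := by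
      rw [g.U_eq] at hu
      unfold Good3.Uge at hu
      induction hu using Subgroup.closure_induction with
      | mem y hy =>
        obtain ⟨s, c, h1, h2, rfl⟩ := hy
        apply g.comm_even (by omega) h2
        rw [allB_iff] at h'
        have h3 := h' s h2
        rw [Bool.or_eq_true, Bool.not_eq_true'] at h3
        rcases h3 with h3 | h3
        · rw [Nat.ble_eq_true_of_le h1] at h3; exact absurd h3 (by decide)
        · exact h3
      | one => simp
      | mul y y' _ _ h1 h2 => rw [mul_assoc, h2, ← mul_assoc, h1, mul_assoc]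
      | inv y _ h1 =>
        rw [inv_mul_eq_iff_eq_mul, ← mul_assoc, h1, mul_assoc, mul_inv_cancel, mul_one]
    rw [h1, mul_inv_cancel_right]

/-- Let G be the Chevalley group of type G₂ (over a field with at least four elements), D₄, E₆, E₇ or E₈ over a finite field F of characteristic two, and let X be the root subgroup of the highest root (the last root index) — a long root subgroup, of order |F|. For every g in G, the subgroup generated by X and its conjugate g X g⁻¹ is either a 2-group or is conjugate by an element of G to the subgroup generated by X and the root subgroup of the lowest root (index 0, the negative of the highest root), which is a copy of SL₂(F). -/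
theorem result {F : Type*} [Field F] [Fintype F] [CharP F 2] (D : Cfsg.Lie.ChevalleyDatum) (hD : D ∈ [Cfsg.Lie.chevG2, Cfsg.Lie.chevD4, Cfsg.Lie.chevE6, Cfsg.Lie.chevE7, Cfsg.Lie.chevE8]) (hF : D = Cfsg.Lie.chevG2 → 4 ≤ Fintype.card F) (g : GL D.Idx F) (hg : g ∈ D.group F) :
    IsPGroup 2 ↥(D.rootSubgroup F (D.nroots - 1) ⊔ (D.rootSubgroup F (D.nroots - 1)).map (MulAut.conj g).toMonoidHom) ∨
    ∃ h ∈ D.group F, (D.rootSubgroup F (D.nroots - 1) ⊔ (D.rootSubgroup F (D.nroots - 1)).map (MulAut.conj g).toMonoidHom).map (MulAut.conj h).toMonoidHom = D.rootSubgroup F (D.nroots - 1) ⊔ D.rootSubgroup F 0 := by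
  simp only [List.mem_cons, List.not_mem_nil, or_false] at hD
  rcases hD with rfl | rfl | rfl | rfl | rfl
  · exact aux CfsgLib.Chev.good3_G2 (by decide +kernel) (by decide +kernel) (by decide +kernel) g hg
  · exact aux CfsgLib.Chev.good3_D4 (by decide +kernel) (by decide +kernel) (by decide +kernel) g hg
  · exact aux CfsgLib.Chev.good3_E6 (by decide +kernel) (by decide +kernel) (by decide +kernel) g hg
  · exact aux CfsgLib.Chev.good3_E7 (by decide +kernel) (by decide +kernel) (by decide +kernel) g hg
  · exact aux CfsgLib.Chev.good3_E8 (by decide +kernel) (by decide +kernel) (by decide +kernel) g hg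

end Cfsg.Agent.S2186
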