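import Cfsg.Statements.S2222
import Cfsg.Agent.LibSylAlt2

set_option autoImplicit false
open Cfsg

namespace Cfsg.Agent.S2222

open Pointwise

theorem pronormal_of_sylow {G : Type*} [Group G] [Finite G] (T : Sylow 2 G) (H : Subgroup G) (hTH : (T : Subgroup G) ≤ H)
    (hN : Subgroup.normalizer ((T : Subgroup G) : Set G) ≤ H) : Cfsg.IsPronormal H := by
  intro g
  set K : Subgroup G := H ⊔ H.map (MulAut.conj g).toMonoidHom with hK
  have h1 : (T : Subgroup G) ≤ K := hTH.trans le_sup_left
  have h2 : ((g • T : Sylow 2 G) : Subgroup G) ≤ K := by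
    refine le_trans ?_ le_sup_right
    rw [Sylow.coe_subgroup_smul]
    intro x hx
    obtain ⟨y, hy, rfl⟩ := hx
    exact ⟨y, hTH hy, rfl⟩
  obtain ⟨k, hk⟩ := MulAction.exists_smul_eq K (T.subtype h1) ((g • T).subtype h2)
  rw [Sylow.smul_subtype] at hk
  have h3 : k • T = g • T := Sylow.subtype_injective hk
  have h4 : ((k : G)⁻¹ * g) ∈ H := by
    apply hN
    change (k : G)⁻¹ * g ∈ Subgroup.normalizer (T : Set G)
    rw [← Sylow.smul_eq_iff_mem_normalizer, mul_smul, ← h3]
    exact inv_smul_smul (k : G) T
  refine ⟨k, k.2, ?_⟩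
  have h5 : g = (k : G) * ((k : G)⁻¹ * g) := by group
  apply le_antisymm
  · rintro _ ⟨x, hx, rfl⟩
    refine ⟨((k : G)⁻¹ * g) * x * ((k : G)⁻¹ * g)⁻¹, mul_mem (mul_mem h4 hx) (inv_mem h4), ?_⟩
    simp only [MulEquiv.toMonoidHom_eq_coe, MonoidHom.coe_coe, MulAut.conj_apply]
    group
  · rintro _ ⟨x, hx, rfl⟩
    refine ⟨((k : G)⁻¹ * g)⁻¹ * x * ((k : G)⁻¹ * g), mul_mem (mul_mem (inv_mem h4) hx) h4, ?_⟩
    simp only [MulEquiv.toMonoidHom_eq_coe, MonoidHom.coe_coe, MulAut.conj_apply]
    group

/-- prime index -/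
theorem pronormal_of_prime {G : Type*} [Group G] [Finite G] (H : Subgroup G) (h : H.index = 1 ∨ H.index.Prime) :
    Cfsg.IsPronormal H := by
  intro g
  set K : Subgroup G := H ⊔ H.map (MulAut.conj g).toMonoidHom with hK
  have hHK : H ≤ K := le_sup_left
  have h1 : K.index ∣ H.index := Subgroup.index_dvd_of_le hHK
  have h2 : K.index = 1 ∨ K.index = H.index := by
    rcases h with h | h
    · left; rw [h] at h1; exact Nat.dvd_one.mp h1
    · exact (Nat.dvd_prime h).mp h1
  rcases h2 with h2 | h2
  · rw [Subgroup.index_eq_one] at h2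
    exact ⟨g, by rw [h2]; exact Subgroup.mem_top _, rfl⟩
  · have h3 : H = K := Subgroup.eq_of_le_of_card_ge hHK (by
      have e1 := H.card_mul_index
      have e2 := K.card_mul_index
      rw [h2, ← e1] at e2
      exact (Nat.eq_of_mul_eq_mul_right (Nat.pos_of_ne_zero Subgroup.index_ne_zero_of_finite) e2).le)
    refine ⟨1, one_mem _, ?_⟩
    have h4 : H.map (MulAut.conj g).toMonoidHom ≤ H := by
      conv_rhs => rw [h3]
      exact le_sup_right
    have h5 : H.map (MulAut.conj g).toMonoidHom = H := Subgroup.eq_of_le_of_card_ge h4 (by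
      rw [Nat.card_congr (Subgroup.equivMapOfInjective H (MulAut.conj g).toMonoidHom (MulAut.conj g).injective).toEquiv])
    rw [h5]
    ext x
    simp

theorem result (n : ℕ) (hn : 5 ≤ n)
    (H : Subgroup (alternatingGroup (Fin n))) (hH : Odd H.index) : Cfsg.IsPronormal H := by
  -- H contains a Sylow 2-subgroup
  obtain ⟨Q⟩ := (inferInstance : Nonempty (Sylow 2 H))
  obtain ⟨T, hT⟩ := (Q.isPGroup'.map H.subtype).exists_le_sylow
  have hcardQ : Nat.card ((Q : Subgroup H).map H.subtype) = Nat.card Q :=
    (Nat.card_congr (Subgroup.equivMapOfInjective _ H.subtype H.subtype_injective).toEquiv).symm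
  have hcard : Nat.card Q = Nat.card T := by
    rw [Sylow.card_eq_multiplicity, Sylow.card_eq_multiplicity, ← H.card_mul_index,
      Nat.factorization_mul Nat.card_pos.ne' Subgroup.index_ne_zero_of_finite]
    simp only [Finsupp.coe_add, Pi.add_apply]
    rw [Nat.factorization_eq_zero_of_not_dvd (n := H.index) hH.not_two_dvd_nat, add_zero]
  have hTeq : (Q : Subgroup H).map H.subtype = T :=
    Subgroup.eq_of_le_of_card_ge hT (by rw [hcardQ, hcard])
  have hTH : (T : Subgroup (alternatingGroup (Fin n))) ≤ H := by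
    rw [← hTeq]; exact Subgroup.map_subtype_le _
  by_cases h6 : 6 ≤ n
  · apply pronormal_of_sylow T H hTH
    rw [CfsgLib.SylAlt2.alt_normalizer (Fin n) (by rwa [Fintype.card_fin]) T]
    exact hTH
  · have hn5 : n = 5 := by omega
    subst hn5
    have hc : Nat.card (alternatingGroup (Fin 5)) = 60 := by
      rw [Nat.card_eq_fintype_card]
      have := two_mul_card_alternatingGroup (α := Fin 5)
      rw [Fintype.card_perm, Fintype.card_fin] at this
      have h5 : Nat.factorial 5 = 120 := rfl
      omega
    have hidx : H.index ∣ 60 := by rw [← hc]; exact H.index_dvd_card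
    have hidx' : H.index ∣ 15 := by
      have : H.index.Coprime 4 := by
        rw [show 4 = 2 ^ 2 by norm_num]
        exact (Nat.coprime_two_right.mpr hH).pow_right 2
      exact this.dvd_of_dvd_mul_left (by simpa using hidx)
    have hle := Nat.le_of_dvd (by norm_num) hidx'
    have h15 : H.index = 1 ∨ H.index.Prime ∨ H.index = 15 := by
      interval_cases H.index <;> first | omega | (right; left; norm_num)
    rcases h15 with h | h | h
    · exact pronormal_of_prime H (Or.inl h)
    · exact pronormal_of_prime H (Or.inr h)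
    · -- H = T, use Sylow conjugacy
      have hH4 : Nat.card H = 4 := by
        have := H.card_mul_index
        rw [h, hc] at this
        omega
      have hT4 : Nat.card T = 4 := by
        have h1 : Nat.card T ∣ Nat.card H := Subgroup.card_dvd_of_le hTH
        rw [← hcard, Sylow.card_eq_multiplicity, hH4]
        have : Nat.factorization 4 2 = 2 := by
          rw [show 4 = 2 ^ 2 by norm_num, Nat.Prime.factorization_pow Nat.prime_two]; simp
        rw [this]; norm_num
      have hTH' : (T : Subgroup (alternatingGroup (Fin 5))) = H :=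
        Subgroup.eq_of_le_of_card_ge hTH (by rw [hH4]; exact hT4.ge)
      intro g
      set K : Subgroup (alternatingGroup (Fin 5)) := H ⊔ H.map (MulAut.conj g).toMonoidHom with hK
      have h1 : (T : Subgroup (alternatingGroup (Fin 5))) ≤ K := hTH.trans le_sup_left
      have h2 : ((g • T : Sylow 2 (alternatingGroup (Fin 5))) : Subgroup (alternatingGroup (Fin 5))) ≤ K := by
        refine le_trans ?_ le_sup_right
        rw [Sylow.coe_subgroup_smul]
        rintro _ ⟨y, hy, rfl⟩
        exact ⟨y, hTH hy, rfl⟩
      obtain ⟨k, hk⟩ := MulAction.exists_smul_eq K (T.subtype h1) ((g • T).subtype h2)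
      rw [Sylow.smul_subtype] at hk
      have h3 : k • T = g • T := Sylow.subtype_injective hk
      refine ⟨k, k.2, ?_⟩
      have h4 := congrArg (fun S : Sylow 2 (alternatingGroup (Fin 5)) => (S : Subgroup (alternatingGroup (Fin 5)))) h3
      have h5 : ((k • T : Sylow 2 (alternatingGroup (Fin 5))) : Subgroup (alternatingGroup (Fin 5))) =
        H.map (MulAut.conj (k : alternatingGroup (Fin 5))).toMonoidHom := by
        rw [← hTH']; rfl
      have h6 : ((g • T : Sylow 2 (alternatingGroup (Fin 5))) : Subgroup (alternatingGroup (Fin 5))) =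
        H.map (MulAut.conj g).toMonoidHom := by
        rw [← hTH']; rfl
      rw [← h5, ← h6]
      exact h4.symm

end Cfsg.Agent.S2222
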