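import Cfsg.Statements.S2225
import Cfsg.Agent.LibPm16
import Cfsg.Agent.LibPm20

set_option autoImplicit false
open Cfsg

namespace Cfsg.Agent.S2225

/-- Let F be a finite field and d = 2^w ≥ 2 a power of 2 such that PSL_d(F) is simple. Then every subgroup H of PSL_d(F) of odd index is pronormal: for every g, H and gHg⁻¹ are conjugate by an element of the subgroup they generate. -/
theorem result {F : Type*} [Field F] [Fintype F]
    (w : ℕ) (hw : 1 ≤ w) (hs : IsSimpleGroup (Matrix.ProjectiveSpecialLinearGroup (Fin (2 ^ w)) F))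
    (H : Subgroup (Matrix.ProjectiveSpecialLinearGroup (Fin (2 ^ w)) F)) (hH : Odd H.index) : Cfsg.IsPronormal H := by
  have hH2 : ¬ 2 ∣ H.index := by
    rw [← even_iff_two_dvd, Nat.not_even_iff_odd]
    exact hH
  rcases Nat.even_or_odd (Fintype.card F) with hq | hq
  · haveI : Fact (Nat.Prime 2) := ⟨Nat.prime_two⟩
    have hch : ringChar F = 2 := by
      obtain ⟨n, hp, hn⟩ := FiniteField.card F (ringChar F)
      rw [hn] at hq
      rw [Nat.even_pow] at hq
      exact ((Nat.Prime.even_iff hp).1 hq.1)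
    haveI : CharP F 2 := by rw [← hch]; exact ringChar.charP F
    obtain ⟨S, hS⟩ := CfsgLib.Pm.pron_char (d := 2 ^ w) (F := F) (p := 2)
    exact CfsgLib.Pm.pron_quot (Subgroup.center (Matrix.SpecialLinearGroup (Fin (2 ^ w)) F)) S (fun K hK _ => hS K hK) H hH2
  · exact CfsgLib.Pm.pron_odd hq hw H hH2

end Cfsg.Agent.S2225
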