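import Cfsg.Statements.S2240
import Mathlib
import Cfsg.Agent.LibSuz7
-- import your own Cfsg.Agent.* helpers here

set_option autoImplicit false
open Cfsg

namespace Cfsg.Agent.S2240

open Cfsg.Agent.Suz
open CfsgLib.TIConj
open scoped Pointwise

variable {F : Type*} [Field F] [Fintype F] {O : Set (Projectivization F (Fin 4 → F))} {m : ℕ}

theorem finrank_F (hF : Fintype.card F = 2 ^ (2 * m + 1)) [Algebra (ZMod 2) F] :
    Module.finrank (ZMod 2) F = 2 * m + 1 := by
  have h1 := Module.natCard_eq_pow_finrank (K := ZMod 2) (V := F)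
  rw [Nat.card_zmod, Nat.card_eq_fintype_card, hF] at h1
  exact (Nat.pow_right_injective (le_refl 2) h1).symm

/-- subfield orders -/
theorem sub_dvd (hF : Fintype.card F = 2 ^ (2 * m + 1)) (K : Subfield F) {n : ℕ} (hK : Nat.card K = 2 ^ n) :
    n ∣ 2 * m + 1 := by
  have h1 := Module.natCard_eq_pow_finrank (K := K) (V := F)
  rw [hK, Nat.card_eq_fintype_card, hF, ← pow_mul] at h1
  exact ⟨_, Nat.pow_right_injective (le_refl 2) h1⟩

theorem exists_sub (hF : Fintype.card F = 2 ^ (2 * m + 1)) {n : ℕ} (hn : n ∣ 2 * m + 1) :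
    ∃ K : Subfield F, Nat.card K = 2 ^ n := by
  have h2f : Fact (Nat.Prime 2) := ⟨Nat.prime_two⟩
  have hchar : CharP F 2 := charP_of_card_eq_prime_pow hF
  let _ : Algebra (ZMod 2) F := ZMod.algebra F 2
  have hn0 : n ≠ 0 := by
    rintro rfl
    have := Nat.eq_zero_of_zero_dvd hn
    omega
  obtain ⟨f⟩ : Nonempty (GaloisField 2 n →ₐ[ZMod 2] F) := by
    apply FiniteField.nonempty_algHom_of_finrank_dvd
    rw [GaloisField.finrank 2 hn0, finrank_F hF]
    exact hn
  refine ⟨f.toRingHom.fieldRange, ?_⟩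
  rw [← GaloisField.card 2 n hn0]
  exact Nat.card_congr (RingHom.rangeRestrictFieldEquiv f.toRingHom).toEquiv.symm

/-- the forward direction inside `U` -/
theorem forward (D : Data F O m) {n : ℕ} (hn : 2 ≤ n) (E : Subgroup (Gp O)) (hEc : Nat.card E = 2 ^ n)
    (hE2 : ∀ x ∈ E, x ^ 2 = 1) (hEU : E ≤ D.Us)
    (hTI : ∀ x : Gp O, E ⊓ E.map (MulAut.conj x).toMonoidHom ≠ ⊥ → x ∈ Subgroup.normalizer (E : Set (Gp O))) :
    n ∣ 2 * m + 1 := by
  have hEZ : ∀ x ∈ E, ∃ b, x = D.u 0 b := by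
    intro x hx
    obtain ⟨a, b, rfl⟩ := hEU hx
    have h1 := hE2 _ hx
    rw [D.u_sq] at h1
    have h2 := (D.u_eq_one h1).2
    have ha : a = 0 := by
      rcases mul_eq_zero.mp h2 with h | h
      · exact (map_eq_zero D.S).mp h
      · exact h
    exact ⟨b, by rw [ha]⟩
  have hadd : ∀ {b c : F}, D.u 0 b ∈ E → D.u 0 c ∈ E → D.u 0 (b + c) ∈ E := by
    intro b c hb hc
    have := E.mul_mem hb hc
    rw [D.u_mul] at this
    simpa using this
  have hdiv : ∀ {b c d : F}, b ≠ 0 → c ≠ 0 → D.u 0 b ∈ E → D.u 0 c ∈ E → D.u 0 d ∈ E → D.u 0 (c / b * d) ∈ E := by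
    intro b c d hb0 hc0 hb hc hd
    obtain ⟨t, ht⟩ := D.lam2_surj (div_ne_zero hc0 hb0)
    have h1 : D.h t ∈ Subgroup.normalizer (E : Set (Gp O)) := by
      apply hTI
      intro h
      have h2 : D.u 0 c ∈ E ⊓ E.map (MulAut.conj (D.h t)).toMonoidHom := by
        refine ⟨hc, D.u 0 b, hb, ?_⟩
        change D.h t * D.u 0 b * (D.h t)⁻¹ = D.u 0 c
        rw [D.norm_h, ht, mul_zero]
        congr 1
        field_simp
      rw [h, Subgroup.mem_bot] at h2
      exact hc0 (D.u_eq_one h2).2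
    have h3 := (Subgroup.mem_normalizer_iff.mp h1 (D.u 0 d)).mp hd
    rw [D.norm_h, ht, mul_zero] at h3
    exact h3
  have hEne : ∃ b, b ≠ 0 ∧ D.u 0 b ∈ E := by
    have h1 : 1 < Nat.card E := by
      rw [hEc]
      exact Nat.one_lt_two_pow (by omega)
    have hnt := Finite.one_lt_card_iff_nontrivial.mp h1
    obtain ⟨⟨x, hx⟩, hx1⟩ := exists_ne (1 : E)
    obtain ⟨b, rfl⟩ := hEZ x hx
    refine ⟨b, ?_, hx⟩
    rintro rfl
    apply hx1
    apply Subtype.ext
    exact D.u_zero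
  obtain ⟨b₀, hb₀, hb₀E⟩ := hEne
  let K : Subfield F :=
    { carrier := {x | D.u 0 (b₀ * x) ∈ E}
      mul_mem' := by
        intro x y hx hy
        change D.u 0 (b₀ * (x * y)) ∈ E
        by_cases hx0 : x = 0
        · rw [hx0, zero_mul, mul_zero, D.u_zero]
          exact E.one_mem
        · have := hdiv hb₀ (mul_ne_zero hb₀ hx0) hb₀E hx hy
          have e : b₀ * x / b₀ * (b₀ * y) = b₀ * (x * y) := by field_simp
          rwa [e] at this
      one_mem' := by
        change D.u 0 (b₀ * 1) ∈ E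
        rwa [mul_one]
      add_mem' := by
        intro x y hx hy
        change D.u 0 (b₀ * (x + y)) ∈ E
        rw [mul_add]
        exact hadd hx hy
      zero_mem' := by
        change D.u 0 (b₀ * 0) ∈ E
        rw [mul_zero, D.u_zero]
        exact E.one_mem
      neg_mem' := by
        intro x hx
        change D.u 0 (b₀ * (-x)) ∈ E
        have e : b₀ * (-x) = b₀ * x := by linear_combination (-(b₀ * x)) * D.h2
        rw [e]
        exact hx
      inv_mem' := by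
        intro x hx
        change D.u 0 (b₀ * x⁻¹) ∈ E
        by_cases hx0 : x = 0
        · rw [hx0, inv_zero, mul_zero, D.u_zero]
          exact E.one_mem
        · have := hdiv (mul_ne_zero hb₀ hx0) hb₀ hx hb₀E hb₀E
          have e : b₀ / (b₀ * x) * b₀ = b₀ * x⁻¹ := by field_simp
          rwa [e] at this }
  apply sub_dvd D.hF K
  rw [← hEc]
  apply Nat.card_congr
  refine Equiv.ofBijective (fun x => ⟨D.u 0 (b₀ * x), x.2⟩) ⟨?_, ?_⟩
  · intro x y h
    have h1 := (D.u_inj (congrArg Subtype.val h)).2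
    exact Subtype.ext (mul_left_cancel₀ hb₀ h1)
  · rintro ⟨x, hx⟩
    obtain ⟨b, rfl⟩ := hEZ x hx
    have e : b₀ * (b / b₀) = b := by field_simp
    refine ⟨⟨b / b₀, ?_⟩, ?_⟩
    · change D.u 0 (b₀ * (b / b₀)) ∈ E
      rwa [e]
    · apply Subtype.ext
      change D.u 0 (b₀ * (b / b₀)) = D.u 0 b
      rw [e]

/-- the subgroup of a subfield -/
def EK (D : Data F O m) (K : Subfield F) : Subgroup (Gp O) where
  carrier := {g | ∃ b ∈ K, g = D.u 0 b}
  mul_mem' := by
    rintro _ _ ⟨b, hb, rfl⟩ ⟨d, hd, rfl⟩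
    exact ⟨b + d, K.add_mem hb hd, by rw [D.u_mul]; simp⟩
  one_mem' := ⟨0, K.zero_mem, D.u_zero.symm⟩
  inv_mem' := by
    rintro _ ⟨b, hb, rfl⟩
    exact ⟨b, hb, by rw [D.u_inv]; simp⟩

theorem ek_norm (D : Data F O m) (K : Subfield F) (x : Gp O)
    (h : EK D K ⊓ (EK D K).map (MulAut.conj x).toMonoidHom ≠ ⊥) : x ∈ Subgroup.normalizer (EK D K : Set (Gp O)) := by
  obtain ⟨⟨y, hy1, hy2⟩, hy⟩ := Subgroup.ne_bot_iff_exists_ne_one.mp h
  have hyne : y ≠ 1 := fun h => hy (Subtype.ext h)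
  obtain ⟨b, hb, rfl⟩ := hy1
  obtain ⟨_, ⟨c, hc, rfl⟩, hcb⟩ := hy2
  have hcb' : x * D.u 0 c * x⁻¹ = D.u 0 b := hcb
  have hb0 : b ≠ 0 := by
    rintro rfl
    exact hyne D.u_zero
  have hxc : x * D.u 0 c = D.u 0 b * x := by rw [← hcb']; group
  have hxi : x • inf F = inf F := by
    rcases (D.hO _).mp (D.smul_mem x D.inf_mem) with h | ⟨p, q, h⟩
    · exact h
    · exfalso
      apply hb0
      apply (D.u_fix (a := 0) (b := b) (x := p) (y := q) _).2
      rw [← h, ← mul_smul, ← hxc, mul_smul, D.u_inf]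
  obtain ⟨p, q, t, rfl⟩ := D.gborel x hxi
  have hact : ∀ d : F, D.u p q * D.h t * D.u 0 d * (D.u p q * D.h t)⁻¹ = D.u 0 ((t : F) ^ 2 * D.S t * d) := by
    intro d
    have e1 : D.u p q * D.h t * D.u 0 d * (D.u p q * D.h t)⁻¹ = D.u p q * (D.h t * D.u 0 d * (D.h t)⁻¹) * (D.u p q)⁻¹ := by
      group
    rw [e1, D.norm_h, mul_zero, D.u_mul, D.u_inv, D.u_mul]
    congr 1
    · rw [add_zero, D.add_self]
    · rw [mul_zero, add_zero, add_zero]
      linear_combination (q + D.S p * p) * D.h2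
  rw [hact] at hcb'
  have h1 := (D.u_inj hcb').2
  have hc0 : c ≠ 0 := by
    rintro rfl
    rw [mul_zero] at h1
    exact hb0 h1.symm
  have hlam : (t : F) ^ 2 * D.S t ∈ K := by
    have e : (t : F) ^ 2 * D.S t = b / c := by rw [← h1]; field_simp
    rw [e]
    exact K.div_mem hb hc
  have hlam0 : (t : F) ^ 2 * D.S t ≠ 0 := by
    intro h
    rw [h, zero_mul] at h1
    exact hb0 h1.symm
  rw [Subgroup.mem_normalizer_iff]
  intro y
  constructor
  · rintro ⟨d, hd, rfl⟩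
    rw [hact]
    exact ⟨_, K.mul_mem hlam hd, rfl⟩
  · rintro ⟨d, hd, hy⟩
    refine ⟨((t : F) ^ 2 * D.S t)⁻¹ * d, K.mul_mem (K.inv_mem hlam) hd, ?_⟩
    have h2 := hact (((t : F) ^ 2 * D.S t)⁻¹ * d)
    rw [← mul_assoc ((t : F) ^ 2 * D.S t), mul_inv_cancel₀ hlam0, one_mul, ← hy] at h2
    exact (mul_left_cancel (mul_right_cancel h2)).symm

/-- Elementary abelian TI-subgroups of the Suzuki group: let q = 2^(2m+1) with m ≥ 1, the group realised as the stabiliser in SL₄ of the Suzuki–Tits ovoid, and n ≥ 2. There is an elementary abelian 2-subgroup E of order 2^n that is a TI-subgroup (every conjugate of E meeting E nontrivially is E itself) if and only if n divides 2m + 1. -/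
theorem result {F : Type*} [Field F] [Fintype F] {m : ℕ} (hm : 1 ≤ m) (hF : Fintype.card F = 2 ^ (2 * m + 1)) (n : ℕ) (hn : 2 ≤ n) :
    (∃ E : Subgroup ↥(Cfsg.Sz F m), Cfsg.IsElementaryAbelian 2 E ∧ Nat.card ↥E = 2 ^ n ∧
      ∀ x : ↥(Cfsg.Sz F m), E ⊓ E.map (MulAut.conj x).toMonoidHom ≠ ⊥ → x ∈ Subgroup.normalizer (E : Set ↥(Cfsg.Sz F m))) ↔ n ∣ 2 * m + 1 := by
  have D := Cfsg.Agent.Suz.data hm hF
  constructor
  · rintro ⟨E, hE, hEc, hTI⟩
    have hE2 : ∀ x ∈ E, x ^ 2 = 1 := by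
      intro x hx
      exact hE.2 x hx
    have hEp : IsPGroup 2 E := IsPGroup.of_card (n := n) hEc
    obtain ⟨P, hP⟩ := hEp.exists_le_sylow
    obtain ⟨k, hk⟩ := D.sylow_conj P
    rw [hk] at hP
    -- conjugate into `U`
    have hconj : ∀ A : Subgroup (Cfsg.Sz F m), (A.map (MulAut.conj k⁻¹).toMonoidHom).map (MulAut.conj k).toMonoidHom = A := by
      intro A
      rw [conj_conj, mul_inv_cancel]
      exact conj_eq_iff.mpr (Subgroup.one_mem _)
    apply forward D hn (E.map (MulAut.conj k⁻¹).toMonoidHom)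
    · rw [card_conj, hEc]
    · intro x hx
      rw [mem_conj] at hx
      have h1 := hE2 _ hx
      have h2 : x ^ 2 = k⁻¹ * (k⁻¹⁻¹ * x * k⁻¹) ^ 2 * k := by
        rw [pow_two, pow_two]; group
      rw [h2, h1]; group
    · intro x hx
      rw [mem_conj] at hx
      have h1 := hP hx
      rw [mem_conj] at h1
      have e : k⁻¹ * (k⁻¹⁻¹ * x * k⁻¹) * k = x := by group
      rwa [e] at h1
    · intro x hx
      have h1 : k * x * k⁻¹ ∈ Subgroup.normalizer (E : Set (Cfsg.Sz F m)) := by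
        apply hTI
        intro h
        apply hx
        rw [eq_bot_iff]
        rintro y ⟨hy1, hy2⟩
        have hy1' : y ∈ E.map (MulAut.conj k⁻¹).toMonoidHom := hy1
        have hy2' : y ∈ (E.map (MulAut.conj k⁻¹).toMonoidHom).map (MulAut.conj x).toMonoidHom := hy2
        rw [conj_conj, mem_conj] at hy2'
        rw [mem_conj] at hy1'
        have h3 : k * y * k⁻¹ ∈ E ⊓ E.map (MulAut.conj (k * x * k⁻¹)).toMonoidHom := by
          constructor
          · have e : k⁻¹⁻¹ * y * k⁻¹ = k * y * k⁻¹ := by group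
            rwa [e] at hy1'
          · change k * y * k⁻¹ ∈ E.map (MulAut.conj (k * x * k⁻¹)).toMonoidHom
            rw [mem_conj]
            have e : (x * k⁻¹)⁻¹ * y * (x * k⁻¹) = (k * x * k⁻¹)⁻¹ * (k * y * k⁻¹) * (k * x * k⁻¹) := by group
            rwa [← e]
        rw [h, Subgroup.mem_bot] at h3
        rw [Subgroup.mem_bot]
        have e : y = k⁻¹ * (k * y * k⁻¹) * k := by group
        rw [e, h3]; group
      rw [← conj_eq_iff] at h1 ⊢
      rw [conj_conj]
      have e : x * k⁻¹ = k⁻¹ * (k * x * k⁻¹) := by group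
      rw [e, ← conj_conj, h1]
  · intro hnd
    obtain ⟨K, hK⟩ := exists_sub hF hnd
    refine ⟨EK D K, ?_, ?_, fun x hx => ek_norm D K x hx⟩
    · refine ⟨?_, ?_⟩
      · refine ⟨⟨?_⟩⟩
        rintro ⟨_, b, hb, rfl⟩ ⟨_, c, hc, rfl⟩
        apply Subtype.ext
        change D.u 0 b * D.u 0 c = D.u 0 c * D.u 0 b
        rw [D.u_mul, D.u_mul, add_comm b c, map_zero]
      · rintro _ ⟨b, hb, rfl⟩
        rw [D.u_sq, map_zero, zero_mul, D.u_zero]
    · rw [← hK]
      symm
      apply Nat.card_congr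
      refine Equiv.ofBijective (fun b => ⟨D.u 0 b, b, b.2, rfl⟩) ⟨?_, ?_⟩
      · intro b c h
        exact Subtype.ext (D.u_inj (congrArg Subtype.val h)).2
      · rintro ⟨_, b, hb, rfl⟩
        exact ⟨⟨b, hb⟩, rfl⟩

end Cfsg.Agent.S2240
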