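import Cfsg.Statements.S2241
import Mathlib
import Cfsg.Agent.LibSuz6
-- import your own Cfsg.Agent.* helpers here

set_option autoImplicit false
open Cfsg

namespace Cfsg.Agent.S2241

open Cfsg.Agent.Suz

/-- Real 2-elements of the Suzuki group: with q = 2^(2m+1), m ≥ 1, and the group realised as the stabiliser in SL₄ of the Suzuki–Tits ovoid, a non-identity element of a Sylow 2-subgroup is conjugate to its inverse if and only if it is an involution; in particular no element of order 4 is conjugate to its inverse. -/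
theorem result {F : Type*} [Field F] [Fintype F] {m : ℕ} (hm : 1 ≤ m) (hF : Fintype.card F = 2 ^ (2 * m + 1)) (P : Sylow 2 ↥(Cfsg.Sz F m)) (g : ↥(Cfsg.Sz F m)) (hg : g ∈ (P : Subgroup ↥(Cfsg.Sz F m))) (h1 : g ≠ 1) :
    IsConj g g⁻¹ ↔ orderOf g = 2 := by
  have D := Cfsg.Agent.Suz.data hm hF
  constructor
  · intro hconj
    obtain ⟨k, hk⟩ := D.sylow_conj P
    rw [hk, D.mem_conj_Us] at hg
    obtain ⟨a, b, hgab⟩ := hg
    -- WLOG `g = u a b`
    have hgo : orderOf g = orderOf (D.u a b) := by
      rw [hgab]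
      exact (orderOf_injective (MulAut.conj k).toMonoidHom (MulAut.conj k).injective (D.u a b))
    have hc2 : ∃ x : Cfsg.Sz F m, x * D.u a b * x⁻¹ = (D.u a b)⁻¹ := by
      obtain ⟨y, hy⟩ := isConj_iff.mp hconj
      refine ⟨k⁻¹ * y * k, ?_⟩
      have e : D.u a b = k⁻¹ * g * k := by rw [hgab]; group
      rw [e]
      calc k⁻¹ * y * k * (k⁻¹ * g * k) * (k⁻¹ * y * k)⁻¹ = k⁻¹ * (y * g * y⁻¹) * k := by group
        _ = _ := by rw [hy]; group
    have hne : ¬ (a = 0 ∧ b = 0) := by
      rintro ⟨rfl, rfl⟩
      apply h1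
      rw [hgab, D.u_zero]
      group
    obtain ⟨x, hx⟩ := hc2
    rw [D.u_inv] at hx
    have hx' : x * D.u a b = D.u a (b + D.S a * a) * x := by rw [← hx]; group
    have hne2 : ¬ (a = 0 ∧ b + D.S a * a = 0) := by
      rintro ⟨h2, h3⟩
      rw [h2] at h3
      apply hne
      refine ⟨h2, ?_⟩
      rw [map_zero, zero_mul, add_zero] at h3
      exact h3
    have hxi : x • inf F = inf F := by
      rcases (D.hO _).mp (D.smul_mem x D.inf_mem) with h | ⟨c, d, h⟩
      · exact h
      · exfalso
        apply hne2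
        apply D.u_fix (x := c) (y := d)
        rw [← h, ← mul_smul, ← hx', mul_smul, D.u_inf]
    obtain ⟨c, d, t, rfl⟩ := D.gborel x hxi
    have e1 : D.u c d * D.h t * D.u a b = D.u (c + D.S t * a) (d + (t : F) ^ 2 * D.S t * b + D.S c * (D.S t * a)) * D.h t := by
      rw [mul_assoc, D.hu, ← mul_assoc, D.u_mul]
    have e2 : D.u a (b + D.S a * a) * (D.u c d * D.h t) = D.u (a + c) (b + D.S a * a + d + D.S a * c) * D.h t := by
      rw [← mul_assoc, D.u_mul]
    rw [e1, e2] at hx'
    obtain ⟨h3, h4, -⟩ := D.uh_inj hx'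
    have ha : a = 0 := by
      by_contra ha
      have ht : t = 1 := by
        by_contra ht
        apply D.St_ne ht
        apply mul_right_cancel₀ ha
        linear_combination h3
      subst ht
      simp only [Units.val_one, map_one, one_mul, one_pow] at h4
      -- `S c * a = S a * a + S a * c`
      have h5 : D.S c * a = D.S a * a + D.S a * c := by linear_combination h4
      have hSa : D.S a ≠ 0 := (map_ne_zero D.S).mpr ha
      obtain ⟨κ, hκ⟩ : ∃ κ, c = a * κ := ⟨c / a, by field_simp⟩
      rw [hκ, map_mul] at h5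
      have h6 : D.S κ = 1 + κ := by
        have : D.S a * a * D.S κ = D.S a * a * (1 + κ) := by linear_combination h5
        exact mul_left_cancel₀ (mul_ne_zero hSa ha) this
      have h7 : κ ^ 2 = 1 + D.S κ := by rw [← D.hS, h6, map_add, map_one, h6]
      have h8 : κ * (κ - 1) = 0 := by rw [h6] at h7; linear_combination h7 + D.h2
      rcases mul_eq_zero.mp h8 with h9 | h9
      · rw [h9, map_zero, add_zero] at h6
        exact one_ne_zero h6.symm
      · rw [sub_eq_zero.mp h9, map_one] at h6
        have : (1 : F) = 0 := by linear_combination -h6 + 0 * D.h2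
        exact one_ne_zero this
    rw [hgo]
    apply orderOf_eq_prime
    · rw [D.u_sq, ha, map_zero, zero_mul, D.u_zero]
    · intro h
      exact hne (D.u_eq_one h)
  · intro h
    have h2 : g ^ 2 = 1 := by rw [← h]; exact pow_orderOf_eq_one g
    have h3 : g⁻¹ = g := inv_eq_of_mul_eq_one_right (by rw [← pow_two, h2])
    rw [h3]

end Cfsg.Agent.S2241
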