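import Cfsg.Statements.S2245
import Cfsg.Agent.LibH22Mx4

set_option autoImplicit false
open Cfsg

namespace Cfsg.Agent.S2245
open Cfsg.Agent.H22.Mx Equiv

theorem pos {G : Type*} [Group G] [Finite G] {n k : ℕ} (hk : 2 ≤ k) (hn : n = 2 ^ k + 1) (ψ : G →* Perm (Fin n)) (hψ : Function.Injective ψ)
    (hA : alternatingGroup (Fin n) ≤ ψ.range) (R : Sylow 2 G) : ∃! M : Subgroup G, IsCoatom M ∧ (R : Subgroup G) ≤ M := by
  obtain ⟨j, rfl⟩ : ∃ j, k = j + 2 := ⟨k - 2, by omega⟩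
  have hc : Fintype.card (Option ((Fin j → ZMod 2) × KK)) = n := by
    rw [Fintype.card_option, Fintype.card_prod]
    have : Fintype.card KK = 4 := by decide
    rw [this, Fintype.card_fun, ZMod.card, Fintype.card_fin, hn, pow_add]; norm_num
  let e : Fin n ≃ Option ((Fin j → ZMod 2) × KK) := (finCongr hc.symm).trans (Fintype.equivFin _).symm
  refine claim1 (ι := Fin j → ZMod 2) (ψ := e.permCongrHom.toMonoidHom.comp ψ) ?_ ?_ ?_ R
  · intro a
    ext i
    exact CharTwo.add_self_eq_zero _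
  · exact e.permCongrHom.injective.comp hψ
  · intro σ hσ
    obtain ⟨τ, rfl⟩ := e.permCongrHom.surjective σ
    have : τ ∈ alternatingGroup (Fin n) := by
      rw [Perm.mem_alternatingGroup] at hσ ⊢
      rw [← hσ]
      exact (Equiv.Perm.sign_permCongr e τ).symm
    obtain ⟨g, rfl⟩ := hA this
    exact ⟨g, rfl⟩

theorem both {G : Type*} [Group G] [Finite G] {n : ℕ} (hn : 5 ≤ n) (ψ : G →* Perm (Fin n)) (hψ : Function.Injective ψ)
    (hA : alternatingGroup (Fin n) ≤ ψ.range) (R : Sylow 2 G) : (∃! M : Subgroup G, IsCoatom M ∧ (R : Subgroup G) ≤ M) ↔ ∃ k : ℕ, 2 ≤ k ∧ n = 2 ^ k + 1 := by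
  constructor
  · intro h
    by_contra hk
    exact claim2 hψ hA R (Fintype.card_fin n) hn hk h
  · rintro ⟨k, hk, hnk⟩
    exact pos hk hnk ψ hψ hA R

/-- For n ≥ 5 with n ≠ 6, a Sylow 2-subgroup of the alternating group A_n lies in exactly one maximal subgroup of A_n if and only if n = 2^k + 1 for some k ≥ 2; the same holds for the symmetric group S_n. -/
theorem result (n : ℕ) (hn : 5 ≤ n) (h6 : n ≠ 6) :
    ((∀ R : Sylow 2 ↥(alternatingGroup (Fin n)), (∃! M : Subgroup ↥(alternatingGroup (Fin n)), IsCoatom M ∧ (R : Subgroup ↥(alternatingGroup (Fin n))) ≤ M) ↔ ∃ k : ℕ, 2 ≤ k ∧ n = 2 ^ k + 1) ∧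
    (∀ R : Sylow 2 (Equiv.Perm (Fin n)), (∃! M : Subgroup (Equiv.Perm (Fin n)), IsCoatom M ∧ (R : Subgroup (Equiv.Perm (Fin n))) ≤ M) ↔ ∃ k : ℕ, 2 ≤ k ∧ n = 2 ^ k + 1)) := by
  refine ⟨fun R => both hn (alternatingGroup (Fin n)).subtype Subtype.val_injective (by rw [Subgroup.range_subtype]) R,
    fun R => both hn (MonoidHom.id _) Function.injective_id (fun σ _ => ⟨σ, rfl⟩) R⟩

end Cfsg.Agent.S2245
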