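import Cfsg.Statements.S2254
import Mathlib
import Cfsg.Agent.LibNExH12

set_option autoImplicit false
open Cfsg

namespace Cfsg.Agent.S2254

/-- Let n ≡ 3 (mod 4). Then every nilpotent subgroup of the symmetric group on n letters has order at most 3 times the order of a Sylow 2-subgroup of the symmetric group on n − 3 letters; the bound is attained by a nilpotent subgroup isomorphic to the direct product of such a Sylow 2-subgroup with a cyclic group of order 3; and any two nilpotent subgroups attaining the bound are conjugate. -/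
theorem result  (n : ℕ) (hn : n % 4 = 3)
    (P : Sylow 2 (Equiv.Perm (Fin (n - 3)))) :
    (∀ N : Subgroup (Equiv.Perm (Fin n)), Group.IsNilpotent N → Nat.card N ≤ 3 * Nat.card P) ∧
    (∃ M : Subgroup (Equiv.Perm (Fin n)), Group.IsNilpotent M ∧ Nat.card M = 3 * Nat.card P ∧
      Nonempty (M ≃* (↥(P : Subgroup (Equiv.Perm (Fin (n - 3)))) × Multiplicative (ZMod 3)))) ∧
    (∀ N₁ N₂ : Subgroup (Equiv.Perm (Fin n)), Group.IsNilpotent N₁ → Group.IsNilpotent N₂ →
      Nat.card N₁ = 3 * Nat.card P → Nat.card N₂ = 3 * Nat.card P →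
      ∃ g : Equiv.Perm (Fin n), N₂ = N₁.map (MulAut.conj g).toMonoidHom) := by
  have h3 : 3 ≤ n := by omega
  have hPc := CfsgLib.NSymBH12.card_sylow_perm (n - 3) P
  refine ⟨?_, ?_, ?_⟩
  · intro N hN
    have h1 := CfsgLib.NSymBH12.sym_bound n (Fin n) (CfsgLib.NExH12.card_fin_nat n) N hN
    rw [CfsgLib.NSymBH12.F_of_three hn] at h1
    rw [hPc]
    omega
  · obtain ⟨h1, h2, h4⟩ := CfsgLib.NExH12.exM n h3 (P : Subgroup (Equiv.Perm (Fin (n - 3)))) P.isPGroup'
    exact ⟨_, h1, h2, h4⟩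
  · intro N₁ N₂ hn1 hn2 hc1 hc2
    rw [hPc] at hc1 hc2
    exact CfsgLib.NExH12.uniq_sym n hn N₁ N₂ hn1 hn2 hc1 hc2

end Cfsg.Agent.S2254
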