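import Cfsg.Statements.S2255
import Mathlib
import Cfsg.Agent.LibNAltH12

set_option autoImplicit false
open Cfsg

namespace Cfsg.Agent.S2255

/-- Let n be a natural number not congruent to 3 modulo 4, with n ∉ {5, 6, 9}. Then every nilpotent subgroup of the alternating group on n letters has order at most the order of a Sylow 2-subgroup of the alternating group (so the nilpotent subgroups of largest order are exactly the Sylow 2-subgroups). -/
theorem result  (n : ℕ) (hn : n % 4 ≠ 3)
    (h5 : n ≠ 5) (h6 : n ≠ 6) (h9 : n ≠ 9)
    (N : Subgroup (alternatingGroup (Fin n))) (hN : Group.IsNilpotent N)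
    (P : Sylow 2 (alternatingGroup (Fin n))) :
    Nat.card N ≤ Nat.card P := by
  have h1 := CfsgLib.NAltH12.alt_bound_sub n N hN
  rcases Nat.lt_or_ge n 2 with h | h
  · have h2 : CfsgLib.NSNumH12.K n = 4 := by
      interval_cases n <;> simp [CfsgLib.NSNumH12.K]
    have h3 : 0 < Nat.card P := Nat.card_pos
    omega
  · have h2 : CfsgLib.NSNumH12.K n = CfsgLib.NSNumH12.F n := by
      apply CfsgLib.NSNumH12.K_eq
      · omega
      · unfold CfsgLib.NSNumH12.Exc
        omega
    rw [h2, CfsgLib.NSymBH12.F_of_ne hn] at h1
    have h3 := CfsgLib.NAltH12.card_sylow_alt n h P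
    omega

end Cfsg.Agent.S2255
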