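import Cfsg.Statements.S2256
import Mathlib
import Cfsg.Agent.LibNExH12

set_option autoImplicit false
open Cfsg

namespace Cfsg.Agent.S2256

/-- Let n ≡ 3 (mod 4) with n ≥ 7. Then every nilpotent subgroup of the alternating group on n letters has order at most 3 times the order of a Sylow 2-subgroup of the alternating group on n − 3 letters; the bound is attained by a nilpotent subgroup isomorphic to the direct product of such a Sylow 2-subgroup with a cyclic group of order 3; and any two nilpotent subgroups of the alternating group attaining the bound are conjugate in it. -/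
theorem result  (n : ℕ) (hn : n % 4 = 3) (h7 : 7 ≤ n)
    (P : Sylow 2 (alternatingGroup (Fin (n - 3)))) :
    (∀ N : Subgroup (alternatingGroup (Fin n)), Group.IsNilpotent N → Nat.card N ≤ 3 * Nat.card P) ∧
    (∃ M : Subgroup (alternatingGroup (Fin n)), Group.IsNilpotent M ∧ Nat.card M = 3 * Nat.card P ∧
      Nonempty (M ≃* (↥(P : Subgroup (alternatingGroup (Fin (n - 3)))) × Multiplicative (ZMod 3)))) ∧
    (∀ N₁ N₂ : Subgroup (alternatingGroup (Fin n)), Group.IsNilpotent N₁ → Group.IsNilpotent N₂ →
      Nat.card N₁ = 3 * Nat.card P → Nat.card N₂ = 3 * Nat.card P →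
      ∃ g : alternatingGroup (Fin n), N₂ = N₁.map (MulAut.conj g).toMonoidHom) := by
  have h3 : 3 ≤ n := by omega
  have hPc := CfsgLib.NAltH12.card_sylow_alt (n - 3) (by omega) P
  obtain ⟨k, hk⟩ := IsPGroup.iff_card.mp P.isPGroup'
  have hk' : Nat.card P = 2 ^ k := hk
  have hv : CfsgLib.NSNumH12.v (n - 3) = k + 1 := by
    rw [hk', ← pow_succ'] at hPc
    exact (Nat.pow_right_injective (le_refl 2) hPc).symm
  have hPp : IsPGroup 2 ((P : Subgroup (alternatingGroup (Fin (n - 3)))).map
      (alternatingGroup (Fin (n - 3))).subtype) := P.isPGroup'.map _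
  have hPm : Nat.card ((P : Subgroup (alternatingGroup (Fin (n - 3)))).map
      (alternatingGroup (Fin (n - 3))).subtype) = Nat.card P :=
    Subgroup.card_map_of_injective (Subgroup.subtype_injective _)
  refine ⟨?_, ?_, ?_⟩
  · intro N hN
    have h1 := CfsgLib.NAltH12.alt_bound_sub n N hN
    have h2 : CfsgLib.NSNumH12.K n = CfsgLib.NSNumH12.F n := by
      apply CfsgLib.NSNumH12.K_eq
      · omega
      · unfold CfsgLib.NSNumH12.Exc
        omega
    rw [h2, CfsgLib.NSymBH12.F_of_three hn] at h1
    omega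
  · obtain ⟨h1, h2, ⟨e⟩⟩ := CfsgLib.NExH12.exM n h3 _ hPp
    have hle := CfsgLib.NExH12.exM_alt n h3 _
      (Subgroup.map_subtype_le (P : Subgroup (alternatingGroup (Fin (n - 3)))))
    refine ⟨Subgroup.subgroupOf (Subgroup.map (CfsgLib.NExH12.Phi n h3)
        (((P : Subgroup (alternatingGroup (Fin (n - 3)))).map
        (alternatingGroup (Fin (n - 3))).subtype).prod (alternatingGroup (Fin 3))))
        (alternatingGroup (Fin n)),
      (Group.isNilpotent_congr (Subgroup.subgroupOfEquivOfLe hle)).mpr h1, ?_, ⟨?_⟩⟩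
    · rw [Nat.card_congr (Subgroup.subgroupOfEquivOfLe hle).toEquiv, h2, hPm]
    · exact ((Subgroup.subgroupOfEquivOfLe hle).trans e).trans
        (MulEquiv.prodCongr ((P : Subgroup (alternatingGroup (Fin (n - 3)))).equivMapOfInjective _
          (Subgroup.subtype_injective _)).symm (MulEquiv.refl _))
  · intro N₁ N₂ hn1 hn2 hc1 hc2
    exact CfsgLib.NExH12.uniq_alt n hn h7 k hv N₁ N₂ hn1 hn2 (by rw [hc1, hk']) (by rw [hc2, hk'])

end Cfsg.Agent.S2256
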