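import Cfsg.Statements.S2268

set_option autoImplicit false
open Pointwise
open Cfsg

namespace Cfsg.Agent.S2268

theorem cent_normal {G : Type*} [Group G] (S : Subgroup G) :
    ((Subgroup.centralizer (S : Set G)).subgroupOf (Subgroup.normalizer (S : Set G))).Normal := by
  constructor
  intro n hn g
  rw [Subgroup.mem_subgroupOf] at hn ⊢
  rw [Subgroup.mem_centralizer_iff] at hn ⊢
  intro h hh
  have hg := g.2
  rw [Subgroup.mem_normalizer_iff''] at hg
  have h1 := hn _ ((hg h).mp hh)
  simp only [Subgroup.coe_mul, InvMemClass.coe_inv]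
  have h2 := congrArg (fun x => (g : G) * x * (g : G)⁻¹) h1
  simp only [mul_assoc, mul_inv_cancel_left, inv_mul_cancel_left] at h2 ⊢
  simpa [mul_assoc] using h2

/-- Let G be a finite group with an abelian Sylow p-subgroup P and let Q ≤ P. Then N_G(Q) = (N_G(Q) ∩ N_G(P))·C_G(Q), so that N_G(Q)/C_G(Q) is a homomorphic image of the subgroup (N_G(Q) ∩ N_G(P))/C_G(P) of N_G(P)/C_G(P); in particular the order of N_G(Q)/C_G(Q) divides the order of N_G(P)/C_G(P). -/
theorem result {G : Type*} [Group G] [Finite G] {p : ℕ} [Fact p.Prime]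
    (P : Sylow p G) (hP : IsMulCommutative (P : Subgroup G)) (Q : Subgroup G) (hQ : Q ≤ (P : Subgroup G)) :
    Subgroup.normalizer (Q : Set G) =
      (Subgroup.normalizer (Q : Set G) ⊓ Subgroup.normalizer ((P : Subgroup G) : Set G)) ⊔ Subgroup.centralizer (Q : Set G) ∧
    ((Subgroup.centralizer (Q : Set G)).subgroupOf (Subgroup.normalizer (Q : Set G))).index ∣ ((Subgroup.centralizer ((P : Subgroup G) : Set G)).subgroupOf (Subgroup.normalizer ((P : Subgroup G) : Set G))).index := by
  have hCle : Subgroup.centralizer (Q : Set G) ≤ Subgroup.normalizer (Q : Set G) := Subgroup.centralizer_le_normalizer _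
  have hPC : (P : Subgroup G) ≤ Subgroup.centralizer (Q : Set G) := by
    intro x hx
    rw [Subgroup.mem_centralizer_iff]
    intro y hy
    have := hP.is_comm.comm ⟨x, hx⟩ ⟨y, hQ hy⟩
    exact (congrArg Subtype.val this).symm
  have hCC : Subgroup.centralizer ((P : Subgroup G) : Set G) ≤ Subgroup.centralizer (Q : Set G) :=
    Subgroup.centralizer_le hQ
  have hmain : Subgroup.normalizer (Q : Set G) =
      (Subgroup.normalizer (Q : Set G) ⊓ Subgroup.normalizer ((P : Subgroup G) : Set G)) ⊔ Subgroup.centralizer (Q : Set G) := by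
    apply le_antisymm
    · intro g hg
      have h2 : ((g • P : Sylow p G) : Subgroup G) ≤ Subgroup.centralizer (Q : Set G) := by
        rintro - ⟨z, hz, rfl⟩
        rw [Subgroup.mem_centralizer_iff]
        intro q hq
        have hg' := hg
        rw [Subgroup.mem_normalizer_iff''] at hg'
        have h1 := (Subgroup.mem_centralizer_iff.mp (hPC hz)) _ ((hg' q).mp hq)
        have h3 := congrArg (fun x => (g : G) * x * (g : G)⁻¹) h1
        simpa [mul_assoc] using h3
      obtain ⟨c, hc⟩ := MulAction.exists_smul_eq (Subgroup.centralizer (Q : Set G)) ((g • P).subtype h2) (P.subtype hPC)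
      simp_rw [Sylow.smul_subtype, Subgroup.smul_def, smul_smul] at hc
      have h3 : (c : G) * g ∈ Subgroup.normalizer ((P : Subgroup G) : Set G) :=
        Sylow.smul_eq_iff_mem_normalizer.mp (Sylow.subtype_injective hc)
      have h4 : g = ((c : G) * g) * (g⁻¹ * (c : G)⁻¹ * g) := by group
      rw [h4]
      apply Subgroup.mul_mem_sup
      · exact ⟨Subgroup.mul_mem _ (hCle c.2) hg, h3⟩
      · have := (cent_normal Q).conj_mem ⟨(c : G)⁻¹, hCle (Subgroup.inv_mem _ c.2)⟩
          (by rw [Subgroup.mem_subgroupOf]; exact Subgroup.inv_mem _ c.2) ⟨g⁻¹, Subgroup.inv_mem _ hg⟩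
        rw [Subgroup.mem_subgroupOf] at this
        simpa using this
    · exact sup_le inf_le_left hCle
  refine ⟨hmain, ?_⟩
  set NQ := Subgroup.normalizer (Q : Set G)
  set NP := Subgroup.normalizer ((P : Subgroup G) : Set G)
  set CQ := Subgroup.centralizer (Q : Set G)
  set CP := Subgroup.centralizer ((P : Subgroup G) : Set G)
  have nQ : (CQ.subgroupOf NQ).Normal := cent_normal Q
  have nP : (CP.subgroupOf NP).Normal := cent_normal (P : Subgroup G)
  have h1 : (CQ.subgroupOf NQ).index = CQ.relIndex (NQ ⊓ NP) := by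
    have e1 : (NQ ⊓ NP).subgroupOf NQ ⊔ CQ.subgroupOf NQ = ⊤ := by
      rw [← Subgroup.subgroupOf_sup inf_le_left hCle, ← hmain, Subgroup.subgroupOf_self]
    have e2 := Subgroup.relIndex_sup_right ((NQ ⊓ NP).subgroupOf NQ) (CQ.subgroupOf NQ)
    rw [e1, Subgroup.relIndex_top_right] at e2
    rw [e2, Subgroup.relIndex_subgroupOf inf_le_left]
  have h2 : CP.relIndex (NQ ⊓ NP) ∣ (CP.subgroupOf NP).index := by
    have e2 := Subgroup.relIndex_dvd_index_of_normal (CP.subgroupOf NP) ((NQ ⊓ NP).subgroupOf NP)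
    rwa [Subgroup.relIndex_subgroupOf inf_le_right] at e2
  rw [h1]
  exact (Subgroup.relIndex_dvd_of_le_left _ hCC).trans h2

end Cfsg.Agent.S2268
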