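import Cfsg.Statements.S2270

set_option autoImplicit false
open Pointwise
open Cfsg

namespace Cfsg.Agent.S2270

/-- If `P` is an abelian Sylow subgroup, `x ∈ P` is not an involution and real, the automizer of `P` has even order. -/
theorem even_of_real {G : Type*} [Group G] [Finite G] {p : ℕ} [Fact p.Prime]
    (P : Sylow p G) (hP : IsMulCommutative (P : Subgroup G)) (x : G) (hx : x ∈ P) (hx2 : x⁻¹ ≠ x)
    (hreal : ∃ g : G, g⁻¹ * x * g = x⁻¹) :
    2 ∣ ((Subgroup.centralizer ((P : Subgroup G) : Set G)).subgroupOf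
      (Subgroup.normalizer ((P : Subgroup G) : Set G))).index := by
  obtain ⟨g, hg⟩ := hreal
  have hP' : IsMulCommutative P := hP
  obtain ⟨n, hn, hn'⟩ := Sylow.conj_eq_normalizer_conj_of_mem P x g hx (by rw [hg]; exact Subgroup.inv_mem _ hx)
  rw [hg] at hn'
  by_contra hodd
  set N := Subgroup.normalizer ((P : Subgroup G) : Set G)
  set C := Subgroup.centralizer ((P : Subgroup G) : Set G)
  have nP : (C.subgroupOf N).Normal := by
    constructor
    intro n hn g
    rw [Subgroup.mem_subgroupOf] at hn ⊢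
    rw [Subgroup.mem_centralizer_iff] at hn ⊢
    intro h hh
    have hg := g.2
    rw [Subgroup.mem_normalizer_iff''] at hg
    have h1 := hn _ ((hg h).mp hh)
    simp only [Subgroup.coe_mul, InvMemClass.coe_inv]
    have h2 := congrArg (fun x => (g : G) * x * (g : G)⁻¹) h1
    simp only [mul_assoc, mul_inv_cancel_left, inv_mul_cancel_left] at h2 ⊢
    simpa [mul_assoc] using h2
  -- n ^ (index) centralizes
  have h1 : (⟨n, hn⟩ : N) ^ (C.subgroupOf N).index ∈ C.subgroupOf N :=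
    Subgroup.pow_index_mem _ _
  rw [Subgroup.mem_subgroupOf, Subgroup.mem_centralizer_iff] at h1
  have h2 := h1 x hx
  simp only [Subgroup.coe_pow] at h2
  -- odd power inverts
  have h3 : ∀ k : ℕ, (n ^ (2 * k))⁻¹ * x * n ^ (2 * k) = x := by
    intro k
    induction k with
    | zero => simp
    | succ k ih =>
      have e : n ^ (2 * (k + 1)) = n ^ (2 * k) * n * n := by rw [mul_add, pow_add, pow_two]; group
      rw [e]
      calc (n ^ (2 * k) * n * n)⁻¹ * x * (n ^ (2 * k) * n * n)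
          = n⁻¹ * (n⁻¹ * ((n ^ (2 * k))⁻¹ * x * n ^ (2 * k)) * n) * n := by group
        _ = n⁻¹ * (n⁻¹ * x * n) * n := by rw [ih]
        _ = n⁻¹ * x⁻¹ * n := by rw [← hn']
        _ = (n⁻¹ * x * n)⁻¹ := by group
        _ = x := by rw [← hn', inv_inv]
  obtain ⟨k, hk⟩ : ∃ k, (C.subgroupOf N).index = 2 * k + 1 := by
    rw [Nat.two_dvd_ne_zero] at hodd
    exact ⟨(C.subgroupOf N).index / 2, by omega⟩
  rw [hk] at h2
  apply hx2
  have h4 : (n ^ (2 * k + 1))⁻¹ * x * n ^ (2 * k + 1) = x := by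
    rw [mul_assoc, h2]; group
  have h5 : (n ^ (2 * k + 1))⁻¹ * x * n ^ (2 * k + 1) = x⁻¹ := by
    have e : n ^ (2 * k + 1) = n ^ (2 * k) * n := pow_succ _ _
    rw [e]
    calc (n ^ (2 * k) * n)⁻¹ * x * (n ^ (2 * k) * n)
        = n⁻¹ * ((n ^ (2 * k))⁻¹ * x * n ^ (2 * k)) * n := by group
      _ = n⁻¹ * x * n := by rw [h3]
      _ = x⁻¹ := by rw [← hn']
  rw [← h5, h4]

/-- Let n ≥ 3, p an odd prime, and P an abelian Sylow p-subgroup of the symmetric group S_n (with p dividing n!, so that P ≠ 1). Then N(P)/C(P) has even order. -/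
theorem result (n : ℕ) (hn : 3 ≤ n) {p : ℕ} [Fact p.Prime] (hp : p ≠ 2) (hpn : p ≤ n)
    (P : Sylow p (Equiv.Perm (Fin n))) (hP : IsMulCommutative (P : Subgroup (Equiv.Perm (Fin n)))) :
    2 ∣ ((Subgroup.centralizer ((P : Subgroup (Equiv.Perm (Fin n))) : Set (Equiv.Perm (Fin n)))).subgroupOf (Subgroup.normalizer ((P : Subgroup (Equiv.Perm (Fin n))) : Set (Equiv.Perm (Fin n))))).index := by
  have hpp := (Fact.out : p.Prime)
  -- an element of order p in P
  have hdvd : p ∣ Nat.card (Equiv.Perm (Fin n)) := by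
    rw [Nat.card_eq_fintype_card, Fintype.card_perm, Fintype.card_fin]
    exact (Nat.Prime.dvd_factorial hpp).mpr hpn
  have h1 : p ∣ Nat.card P := Sylow.dvd_card_of_dvd_card P hdvd
  obtain ⟨x, hx⟩ := exists_prime_orderOf_dvd_card' p h1
  apply even_of_real P hP (x : Equiv.Perm (Fin n)) x.2
  · intro h
    have h2 : (x : Equiv.Perm (Fin n)) ^ 2 = 1 := by
      rw [pow_two]; nth_rewrite 1 [← h]; simp
    have h3 : orderOf (x : Equiv.Perm (Fin n)) ∣ 2 := orderOf_dvd_of_pow_eq_one h2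
    rw [Subgroup.orderOf_coe, hx] at h3
    exact hp ((Nat.prime_dvd_prime_iff_eq hpp Nat.prime_two).mp h3)
  · have h2 : IsConj (x : Equiv.Perm (Fin n)) (x : Equiv.Perm (Fin n))⁻¹ := by
      rw [Equiv.Perm.isConj_iff_cycleType_eq, Equiv.Perm.cycleType_inv]
    obtain ⟨c, hc⟩ := isConj_iff.mp h2
    exact ⟨c⁻¹, by rw [inv_inv, hc]⟩

end Cfsg.Agent.S2270
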