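import Cfsg.Statements.S2269
import Cfsg.Agent.S2270

set_option autoImplicit false
open Cfsg

namespace Cfsg.Agent.S2269

open Equiv Equiv.Perm

theorem exists_conj_mem {G : Type*} [Group G] [Finite G] {p : ℕ} [Fact p.Prime] (P : Sylow p G) (x : G)
    (k : ℕ) (hx : x ^ p ^ k = 1) : ∃ c : G, c⁻¹ * x * c ∈ P := by
  have h1 : IsPGroup p (Subgroup.zpowers x) := by
    rintro ⟨y, m, rfl⟩
    refine ⟨k, Subtype.ext ?_⟩
    change (x ^ m) ^ p ^ k = 1
    rw [← zpow_natCast, ← zpow_mul, mul_comm, zpow_mul, zpow_natCast, hx, one_zpow]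
  obtain ⟨Q, hQ⟩ := h1.exists_le_sylow
  obtain ⟨c, hc⟩ := MulAction.exists_smul_eq G P Q
  refine ⟨c, ?_⟩
  have h2 : x ∈ (Q : Subgroup G) := hQ (Subgroup.mem_zpowers x)
  rw [← hc, Sylow.coe_subgroup_smul, Subgroup.mem_pointwise_smul_iff_inv_smul_mem] at h2
  have h3 : (MulAut.conj c)⁻¹ • x = c⁻¹ * x * c := by
    rw [← map_inv]
    simp [MulAut.smul_def, MulAut.conj_apply]
  rwa [h3] at h2

theorem even_of_real' {G : Type*} [Group G] [Finite G] {p : ℕ} [Fact p.Prime]
    (P : Sylow p G) (hP : IsMulCommutative (P : Subgroup G)) (x : G) (k : ℕ) (hx : x ^ p ^ k = 1) (hx2 : x⁻¹ ≠ x)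
    (hreal : ∃ g : G, g⁻¹ * x * g = x⁻¹) :
    2 ∣ ((Subgroup.centralizer ((P : Subgroup G) : Set G)).subgroupOf
      (Subgroup.normalizer ((P : Subgroup G) : Set G))).index := by
  obtain ⟨c, hc⟩ := exists_conj_mem P x k hx
  refine Cfsg.Agent.S2270.even_of_real P hP _ hc ?_ ?_
  · intro h
    apply hx2
    have h1 : (c⁻¹ * x * c)⁻¹ = c⁻¹ * x⁻¹ * c := by group
    rw [h1] at h
    exact mul_left_cancel (mul_right_cancel h)
  · obtain ⟨g, hg⟩ := hreal
    refine ⟨c⁻¹ * g * c, ?_⟩
    have : (c⁻¹ * g * c)⁻¹ * (c⁻¹ * x * c) * (c⁻¹ * g * c) = c⁻¹ * (g⁻¹ * x * g) * c := by group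
    rw [this, hg]
    group

theorem two_case (n : ℕ) (hn : 6 ≤ n) (P : Sylow 2 (alternatingGroup (Fin n)))
    (hP : IsMulCommutative (P : Subgroup (alternatingGroup (Fin n)))) :
    2 ∣ ((Subgroup.centralizer ((P : Subgroup (alternatingGroup (Fin n))) : Set (alternatingGroup (Fin n)))).subgroupOf (Subgroup.normalizer ((P : Subgroup (alternatingGroup (Fin n))) : Set (alternatingGroup (Fin n))))).index := by
  classical
  let ι : Fin 6 ↪ Fin n := Fin.castLEEmb hn
  let φ : Perm (Fin 6) →* Perm (Fin n) := Equiv.Perm.viaEmbeddingHom ι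
  have hφ : Function.Injective φ := Equiv.Perm.viaEmbeddingHom_injective ι
  have hs : ∀ σ : Perm (Fin 6), Perm.sign (φ σ) = Perm.sign σ := by
    intro σ
    simp only [φ, Equiv.Perm.viaEmbeddingHom_apply, Equiv.Perm.viaEmbedding]
    rw [Equiv.Perm.sign_extendDomain]
  let x : Perm (Fin 6) := swap 0 1 * swap 1 2 * swap 2 3 * swap 4 5
  let g : Perm (Fin 6) := swap 0 2 * swap 4 5
  have h1 : x ^ 4 = 1 := by decide +kernel
  have h2 : x⁻¹ ≠ x := by decide +kernel
  have h3 : g⁻¹ * x * g = x⁻¹ := by decide +kernel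
  have h4 : Perm.sign x = 1 := by decide +kernel
  have h5 : Perm.sign g = 1 := by decide +kernel
  refine even_of_real' P hP ⟨φ x, by rw [Perm.mem_alternatingGroup, hs, h4]⟩ 2 ?_ ?_ ?_
  · apply Subtype.ext
    change φ x ^ 2 ^ 2 = 1
    rw [← map_pow]
    rw [show 2 ^ 2 = 4 by norm_num, h1, map_one]
  · intro h
    have h6 : (φ x)⁻¹ = φ x := congrArg Subtype.val h
    rw [← map_inv] at h6
    exact h2 (hφ h6)
  · refine ⟨⟨φ g, by rw [Perm.mem_alternatingGroup, hs, h5]⟩, ?_⟩
    apply Subtype.ext
    change (φ g)⁻¹ * φ x * φ g = (φ x)⁻¹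
    rw [← map_inv, ← map_mul, ← map_mul, h3, map_inv]

theorem odd_case (n p : ℕ) [Fact p.Prime] (hp : p ≠ 2) (P : Sylow p (alternatingGroup (Fin n)))
    (hP : IsMulCommutative (P : Subgroup (alternatingGroup (Fin n)))) (h : 2 * p ≤ n) :
    2 ∣ ((Subgroup.centralizer ((P : Subgroup (alternatingGroup (Fin n))) : Set (alternatingGroup (Fin n)))).subgroupOf (Subgroup.normalizer ((P : Subgroup (alternatingGroup (Fin n))) : Set (alternatingGroup (Fin n))))).index := by
  classical
  have hpp : p.Prime := Fact.out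
  have hodd : Odd p := hpp.odd_of_ne_two hp
  have h3 : 3 ≤ p := by
    have := hpp.two_le
    omega
  obtain ⟨x, hx⟩ := (Equiv.Perm.exists_with_cycleType_iff (α := Fin n) (m := {p})).mpr
    ⟨by rw [Multiset.sum_singleton, Fintype.card_fin]; omega, by
      intro a ha; rw [Multiset.mem_singleton] at ha; omega⟩
  have hord : orderOf x = p := by
    rw [← Equiv.Perm.lcm_cycleType, hx, Multiset.lcm_singleton]; simp
  have hpow : x ^ p = 1 := by rw [← hord]; exact pow_orderOf_eq_one x
  have hsign : Perm.sign x = 1 := by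
    have h1 : Perm.sign x ^ p = 1 := by rw [← map_pow, hpow, map_one]
    rcases Int.units_eq_one_or (Perm.sign x) with h2 | h2
    · exact h2
    · rw [h2, hodd.neg_one_pow] at h1
      exact absurd h1 (by decide)
  have hne : x⁻¹ ≠ x := by
    intro hh
    have h1 : x ^ 2 = 1 := by rw [sq]; nth_rewrite 1 [← hh]; exact inv_mul_cancel x
    have := orderOf_dvd_of_pow_eq_one h1
    rw [hord] at this
    have := Nat.le_of_dvd (by norm_num) this
    omega
  have hconj : IsConj x x⁻¹ := by
    rw [Equiv.Perm.isConj_iff_cycleType_eq, Equiv.Perm.cycleType_inv]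
  obtain ⟨c, hc⟩ := isConj_iff.mp hconj
  have hsupp : x.support.card = p := by
    rw [← Equiv.Perm.sum_cycleType, hx, Multiset.sum_singleton]
  obtain ⟨a, ha, b, hb, hab⟩ : ∃ a ∈ x.supportᶜ, ∃ b ∈ x.supportᶜ, a ≠ b := by
    rw [← Finset.one_lt_card]
    rw [Finset.card_compl, hsupp, Fintype.card_fin]
    omega
  rw [Finset.mem_compl, Equiv.Perm.notMem_support] at ha hb
  -- choose an even conjugator
  obtain ⟨g, hg1, hg2⟩ : ∃ g : Perm (Fin n), Perm.sign g = 1 ∧ g * x * g⁻¹ = x⁻¹ := by
    rcases Int.units_eq_one_or (Perm.sign c) with h2 | h2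
    · exact ⟨c, h2, hc⟩
    · refine ⟨c * swap a b, by rw [Perm.sign_mul, h2, Perm.sign_swap hab]; decide, ?_⟩
      have h4 : swap a b * x * (swap a b)⁻¹ = x := by
        rw [mul_inv_eq_iff_eq_mul]
        ext z
        have : x * swap a b = swap (x a) (x b) * x := by
          rw [Equiv.swap_apply_apply]; simp
        rw [this, ha, hb]
      rw [_root_.mul_inv_rev]
      calc c * swap a b * x * ((swap a b)⁻¹ * c⁻¹) = c * (swap a b * x * (swap a b)⁻¹) * c⁻¹ := by group
        _ = _ := by rw [h4, hc]
  refine even_of_real' P hP ⟨x, hsign⟩ 1 ?_ ?_ ?_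
  · apply Subtype.ext
    change x ^ p ^ 1 = 1
    rw [pow_one]; exact hpow
  · intro hh
    exact hne (congrArg Subtype.val hh)
  · refine ⟨⟨g⁻¹, by rw [Perm.mem_alternatingGroup, Perm.sign_inv]; exact hg1⟩, ?_⟩
    apply Subtype.ext
    change (g⁻¹)⁻¹ * x * g⁻¹ = x⁻¹
    rw [inv_inv]; exact hg2

theorem cyclic_case (n p : ℕ) [Fact p.Prime] (hn : 2 ≤ n) (P : Sylow p (alternatingGroup (Fin n)))
    (h : n < 2 * p) : IsCyclic (P : Subgroup (alternatingGroup (Fin n))) := by
  have hpp : p.Prime := Fact.out
  have hv : padicValNat p (n.factorial) ≤ 1 := by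
    by_cases hlt : n < p
    · rw [padicValNat.eq_zero_of_not_dvd]
      · omega
      · rw [hpp.dvd_factorial]; omega
    · have : n = p * 1 + (n - p) := by omega
      rw [this, padicValNat_factorial_mul_add _ (by omega), padicValNat_factorial_mul]
      simp
  have hcard : 2 * Nat.card (alternatingGroup (Fin n)) = n.factorial := by
    have hnt : Nontrivial (Fin n) := Fin.nontrivial_iff_two_le.mpr hn
    rw [Nat.card_eq_fintype_card, two_mul_card_alternatingGroup, Fintype.card_perm, Fintype.card_fin]
  have hv2 : (Nat.card (alternatingGroup (Fin n))).factorization p ≤ 1 := by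
    have h1 : (n.factorial).factorization p ≤ 1 := by
      rw [Nat.factorization_def _ hpp]; exact hv
    rw [← hcard, Nat.factorization_mul (by norm_num) Nat.card_pos.ne'] at h1
    simp only [Finsupp.coe_add, Pi.add_apply] at h1
    omega
  have hP : Nat.card P ∣ p := by
    rw [Sylow.card_eq_multiplicity]
    calc p ^ (Nat.card (alternatingGroup (Fin n))).factorization p ∣ p ^ 1 := pow_dvd_pow _ hv2
      _ = p := pow_one p
  exact isCyclic_of_card_dvd_prime hP


theorem sq_of_four : ∀ g : Perm (Fin 5), g ^ 4 = 1 → Perm.sign g = 1 → g ^ 2 = 1 := by decide +kernel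

theorem card_A5 : Nat.card (alternatingGroup (Fin 5)) = 60 := by
  rw [Nat.card_eq_fintype_card]
  have := two_mul_card_alternatingGroup (α := Fin 5)
  rw [Fintype.card_perm, Fintype.card_fin] at this
  have h5 : Nat.factorial 5 = 120 := rfl
  omega

theorem card_P (P : Sylow 2 (alternatingGroup (Fin 5))) : Nat.card (P : Subgroup (alternatingGroup (Fin 5))) = 4 := by
  have : Nat.factorization 60 2 = 2 := by
    rw [show 60 = 2 ^ 2 * 15 by norm_num, Nat.factorization_mul (by norm_num) (by norm_num),
      Nat.Prime.factorization_pow Nat.prime_two]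
    simp only [Finsupp.coe_add, Pi.add_apply, Finsupp.single_eq_same]
    rw [Nat.factorization_eq_zero_of_not_dvd (by norm_num)]
  rw [Sylow.card_eq_multiplicity, card_A5, this]
  norm_num

/-- the action of automorphisms on nontrivial elements -/
def autHom (H : Type) [Group H] : MulAut H →* Perm {x : H // x ≠ 1} where
  toFun φ := Equiv.Perm.subtypePerm (φ.toEquiv : Perm H) (fun x => by
    change φ x ≠ 1 ↔ x ≠ 1
    rw [Ne, Ne, map_eq_one_iff φ φ.injective])
  map_one' := by ext x; rfl
  map_mul' a b := by ext x; rfl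

theorem autHom_injective (H : Type) [Group H] : Function.Injective (autHom H) := by
  intro a b h
  apply MulEquiv.ext
  intro x
  by_cases hx : x = 1
  · rw [hx, map_one, map_one]
  · have := congrArg (fun f : Perm {x : H // x ≠ 1} => (f ⟨x, hx⟩).1) h
    exact this

theorem five_case (P : Sylow 2 (alternatingGroup (Fin 5))) :
    ((Subgroup.centralizer ((P : Subgroup (alternatingGroup (Fin 5))) : Set (alternatingGroup (Fin 5)))).subgroupOf (Subgroup.normalizer ((P : Subgroup (alternatingGroup (Fin 5))) : Set (alternatingGroup (Fin 5))))).index = 3 ∧ IsKleinFour (P : Subgroup (alternatingGroup (Fin 5))) := by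
  classical
  have hcard := card_P P
  have hpow4 : ∀ x : (P : Subgroup (alternatingGroup (Fin 5))), x ^ 2 = 1 := by
    intro x
    have h1 : x ^ 4 = 1 := by rw [← hcard]; exact pow_card_eq_one'
    have h2 : ((x : alternatingGroup (Fin 5)) : Perm (Fin 5)) ^ 4 = 1 :=
      congrArg (fun y : (P : Subgroup (alternatingGroup (Fin 5))) => ((y : alternatingGroup (Fin 5)) : Perm (Fin 5))) h1
    exact Subtype.ext (Subtype.ext (sq_of_four _ h2 (x : alternatingGroup (Fin 5)).2))
  have hcomm : ∀ x y : (P : Subgroup (alternatingGroup (Fin 5))), x * y = y * x := by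
    intro x y
    have hx := hpow4 x
    have hy := hpow4 y
    have hxy := hpow4 (x * y)
    rw [sq] at hx hy hxy
    have hx' : x⁻¹ = x := inv_eq_of_mul_eq_one_left hx
    have hy' : y⁻¹ = y := inv_eq_of_mul_eq_one_left hy
    have hxy' : (x * y)⁻¹ = x * y := inv_eq_of_mul_eq_one_left hxy
    rw [← hxy', _root_.mul_inv_rev, hx', hy']
  have hPC : (P : Subgroup (alternatingGroup (Fin 5))) ≤
      Subgroup.centralizer ((P : Subgroup (alternatingGroup (Fin 5))) : Set (alternatingGroup (Fin 5))) := by
    intro x hx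
    rw [Subgroup.mem_centralizer_iff]
    intro y hy
    exact congrArg Subtype.val (hcomm ⟨y, hy⟩ ⟨x, hx⟩)
  constructor
  · set N := Subgroup.normalizer ((P : Subgroup (alternatingGroup (Fin 5))) : Set (alternatingGroup (Fin 5))) with hN
    set C := Subgroup.centralizer ((P : Subgroup (alternatingGroup (Fin 5))) : Set (alternatingGroup (Fin 5))) with hC
    -- divides 15
    have hPN : (P : Subgroup (alternatingGroup (Fin 5))) ≤ N := Subgroup.le_normalizer
    have hd15 : (C.subgroupOf N).index ∣ 15 := by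
      have h1 : (C.subgroupOf N).index ∣ ((P : Subgroup (alternatingGroup (Fin 5))).subgroupOf N).index := by
        apply Subgroup.index_dvd_of_le
        intro x hx
        exact hPC hx
      have h2 : ((P : Subgroup (alternatingGroup (Fin 5))).subgroupOf N).index ∣
          (P : Subgroup (alternatingGroup (Fin 5))).index := Subgroup.relIndex_dvd_index_of_le hPN
      have h3 : (P : Subgroup (alternatingGroup (Fin 5))).index = 15 := by
        have := (P : Subgroup (alternatingGroup (Fin 5))).card_mul_index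
        rw [hcard, card_A5] at this
        omega
      rw [h3] at h2
      exact h1.trans h2
    -- divides 6
    have hd6 : (C.subgroupOf N).index ∣ 6 := by
      have h1 : ((P : Subgroup (alternatingGroup (Fin 5))).normalizerMonoidHom).ker = C.subgroupOf N :=
        Subgroup.normalizerMonoidHom_ker _
      have h2 : ((autHom (P : Subgroup (alternatingGroup (Fin 5)))).comp
          ((P : Subgroup (alternatingGroup (Fin 5))).normalizerMonoidHom)).ker = C.subgroupOf N := by
        rw [← h1]
        ext x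
        rw [MonoidHom.mem_ker, MonoidHom.mem_ker, MonoidHom.comp_apply,
          map_eq_one_iff _ (autHom_injective _)]
      rw [← h2, Subgroup.index_ker]
      refine (Subgroup.card_subgroup_dvd_card _).trans ?_
      have hfin : Fintype (P : Subgroup (alternatingGroup (Fin 5))) := Fintype.ofFinite _
      rw [Nat.card_eq_fintype_card, Fintype.card_perm, Fintype.card_subtype_compl, Fintype.card_subtype_eq,
        ← Nat.card_eq_fintype_card, hcard]
      exact dvd_refl 6
    have hd3 : (C.subgroupOf N).index ∣ 3 := by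
      have := Nat.dvd_gcd hd15 hd6
      exact this
    rcases (Nat.dvd_prime Nat.prime_three).mp hd3 with h1 | h1
    · exfalso
      rw [Subgroup.index_eq_one, Subgroup.subgroupOf_eq_top] at h1
      have h2 := MonoidHom.ker_transferSylow_isComplement' P h1
      have h3 : Nat.card ((MonoidHom.transferSylow P h1).ker) * 4 = 60 := by
        rw [← hcard, ← card_A5]; exact h2.card_mul_card
      have hsimp : IsSimpleGroup (alternatingGroup (Fin 5)) := inferInstance
      rcases (MonoidHom.normal_ker (MonoidHom.transferSylow P h1)).eq_bot_or_eq_top with h4 | h4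
      · rw [h4, Subgroup.card_bot] at h3
        omega
      · rw [h4, Subgroup.card_top, card_A5] at h3
        omega
    · exact h1
  · refine ⟨hcard, ?_⟩
    have h1 : Monoid.exponent (P : Subgroup (alternatingGroup (Fin 5))) ∣ 2 :=
      Monoid.exponent_dvd_of_forall_pow_eq_one hpow4
    rcases (Nat.dvd_prime Nat.prime_two).mp h1 with h2 | h2
    · exfalso
      have h3 := Monoid.exp_eq_one_iff.mp h2
      have := (Nat.card_eq_one_iff_unique (α := (P : Subgroup (alternatingGroup (Fin 5))))).mpr ⟨h3, ⟨1⟩⟩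
      rw [hcard] at this
      omega
    · exact h2

/-- Let n ≥ 5 and let P be an abelian Sylow p-subgroup of the alternating group A_n. Then N(P)/C(P) (taken in A_n) has even order, or P is cyclic, except when n = 5 and p = 2, where P is a four-group and N(P)/C(P) has order 3. -/
theorem result (n : ℕ) (hn : 5 ≤ n) {p : ℕ} [Fact p.Prime]
    (P : Sylow p (alternatingGroup (Fin n))) (hP : IsMulCommutative (P : Subgroup (alternatingGroup (Fin n)))) :
    (¬ (n = 5 ∧ p = 2) → 2 ∣ ((Subgroup.centralizer ((P : Subgroup (alternatingGroup (Fin n))) : Set (alternatingGroup (Fin n)))).subgroupOf (Subgroup.normalizer ((P : Subgroup (alternatingGroup (Fin n))) : Set (alternatingGroup (Fin n))))).index ∨ IsCyclic (P : Subgroup (alternatingGroup (Fin n)))) ∧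
    ((n = 5 ∧ p = 2) → ((Subgroup.centralizer ((P : Subgroup (alternatingGroup (Fin n))) : Set (alternatingGroup (Fin n)))).subgroupOf (Subgroup.normalizer ((P : Subgroup (alternatingGroup (Fin n))) : Set (alternatingGroup (Fin n))))).index = 3 ∧ IsKleinFour (P : Subgroup (alternatingGroup (Fin n)))) := by
  constructor
  · intro h
    by_cases hp : p = 2
    · subst hp
      left
      exact two_case n (by omega) P hP
    · by_cases h2 : 2 * p ≤ n
      · left; exact odd_case n p hp P hP h2
      · right; exact cyclic_case n p (by omega) P (by omega)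
  · rintro ⟨rfl, rfl⟩
    exact five_case P

end Cfsg.Agent.S2269
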