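import Cfsg.Agent.EqBase
import Cfsg.Agent.LibReg2

set_option autoImplicit false

namespace Cfsg.Agent.S2278

open Matrix CfsgLib.Reg1 CfsgLib.Reg2

variable {F : Type*} [Field F]

theorem exists_subfield [Fintype F] (A : AddSubgroup F) (h4 : ∀ a b c d : F, a ∈ A → b ∈ A → c ∈ A → d ∈ A → a * b * c * d ∈ A)
    (κ : F) (hκ : κ ≠ 0) (hκA : κ ∈ A) : ∃ K : Subfield F, (∀ x, x ∈ K ↔ κ * x ∈ A) ∧ κ ^ 3 ∈ K := by
  have h3 : ∀ x y z : F, κ * x ∈ A → κ * y ∈ A → κ * z ∈ A → κ * (κ ^ 3 * x * y * z) ∈ A := by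
    intro x y z hx hy hz
    have := h4 _ _ _ _ hx hy hz hκA
    have e : κ * (κ ^ 3 * x * y * z) = κ * x * (κ * y) * (κ * z) * κ := by ring
    rw [e]; exact this
  have h1 : κ * 1 ∈ A := by rwa [mul_one]
  have hpow : ∀ k : ℕ, κ * (κ ^ 3) ^ k ∈ A := by
    intro k
    induction k with
    | zero => rw [pow_zero]; exact h1
    | succ k ih =>
      have := h3 _ _ _ ih h1 h1
      have e : κ * (κ ^ 3) ^ (k + 1) = κ * (κ ^ 3 * (κ ^ 3) ^ k * 1 * 1) := by ring
      rw [e]; exact this
  have hq : 1 < Fintype.card F := Fintype.one_lt_card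
  have hfin : ∀ x : F, x ≠ 0 → x * x ^ (Fintype.card F - 2) = 1 := by
    intro x hx
    rw [← pow_succ']
    have : Fintype.card F - 2 + 1 = Fintype.card F - 1 := by omega
    rw [this]; exact FiniteField.pow_card_sub_one_eq_one x hx
  have hmul : ∀ x y : F, κ * x ∈ A → κ * y ∈ A → κ * (x * y) ∈ A := by
    intro x y hx hy
    have := h3 _ _ _ hx hy (hpow (Fintype.card F - 2))
    have e : κ * (κ ^ 3 * x * y * (κ ^ 3) ^ (Fintype.card F - 2)) = κ * (x * y) * (κ ^ 3 * (κ ^ 3) ^ (Fintype.card F - 2)) := by ring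
    rw [e, hfin _ (pow_ne_zero 3 hκ), mul_one] at this
    exact this
  have hxpow : ∀ (x : F) (k : ℕ), κ * x ∈ A → κ * x ^ k ∈ A := by
    intro x k hx
    induction k with
    | zero => rw [pow_zero]; exact h1
    | succ k ih => rw [pow_succ]; exact hmul _ _ ih hx
  refine ⟨{ carrier := {x | κ * x ∈ A}
            mul_mem' := fun {x y} hx hy => hmul x y hx hy
            one_mem' := h1
            add_mem' := fun {x y} hx hy => by
              change κ * (x + y) ∈ A
              rw [mul_add]; exact add_mem hx hy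
            zero_mem' := by
              change κ * 0 ∈ A
              rw [mul_zero]; exact zero_mem A
            neg_mem' := fun {x} hx => by
              change κ * (-x) ∈ A
              rw [mul_neg]; exact neg_mem hx
            inv_mem' := fun x hx => by
              change κ * x⁻¹ ∈ A
              by_cases hx0 : x = 0
              · rw [hx0, _root_.inv_zero, mul_zero]; exact zero_mem A
              · have e : x⁻¹ = x ^ (Fintype.card F - 2) := by
                  exact inv_eq_of_mul_eq_one_right (hfin x hx0)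
                rw [e]; exact hxpow x _ hx }, fun x => Iff.rfl, ?_⟩
  have := hpow 1
  rwa [pow_one] at this

theorem subfield_top [Fintype F] (K : Subfield F) (γ : F) (hγ : ∀ x : F, x ≠ 0 → ∃ k : ℕ, x = γ ^ k)
    (h : γ ∈ K) (x : F) : x ∈ K := by
  by_cases hx : x = 0
  · rw [hx]; exact zero_mem K
  · obtain ⟨k, hk⟩ := hγ x hx
    rw [hk]; exact pow_mem h k

/-- characteristic at least five -/
theorem five_case (K : Subfield F) (h2 : (2 : F) ≠ 0) (h3 : (3 : F) ≠ 0) (γ lam : F)
    (hl : lam = γ ∨ lam = 2 * γ) (hκ : 12 + lam ^ 2 ≠ 0)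
    (hk1 : (12 + lam ^ 2) ^ 3 ∈ K) (hk2 : lam * (12 + lam ^ 2) ∈ K) : γ ∈ K := by
  have h12 : (12 : F) ≠ 0 := by
    have : (12 : F) = 2 * 2 * 3 := by norm_num
    rw [this]; exact mul_ne_zero (mul_ne_zero h2 h2) h3
  have m12 : (12 : F) ∈ K := by
    have := natCast_mem K 12
    exact_mod_cast this
  have m2 : (2 : F) ∈ K := by
    have := natCast_mem K 2
    exact_mod_cast this
  have s1 : (12 + lam ^ 2) ^ 2 ∈ K := by
    have : (12 + lam ^ 2) ^ 2 = ((12 + lam ^ 2) ^ 3 - (lam * (12 + lam ^ 2)) ^ 2) / 12 := by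
      field_simp
      ring
    rw [this]
    exact div_mem (sub_mem hk1 (pow_mem hk2 2)) m12
  have s2 : 12 + lam ^ 2 ∈ K := by
    have : 12 + lam ^ 2 = (12 + lam ^ 2) ^ 3 / (12 + lam ^ 2) ^ 2 := by
      field_simp
    rw [this]
    exact div_mem hk1 s1
  have s3 : lam ∈ K := by
    have : lam = (lam * (12 + lam ^ 2)) / (12 + lam ^ 2) := by
      field_simp
    rw [this]
    exact div_mem hk2 s2
  rcases hl with hl | hl
  · rw [← hl]; exact s3
  · have : γ = lam / 2 := by rw [hl]; field_simp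
    rw [this]; exact div_mem s3 m2

/-- characteristic three -/
theorem three_case [Fintype F] (K : Subfield F) (h3 : (3 : F) = 0) (γ : F) (hγ0 : γ ≠ 0)
    (hγ : ∀ x : F, x ≠ 0 → ∃ k : ℕ, x = γ ^ k) (h : γ ^ 3 ∈ K) : γ ∈ K := by
  have hchar : CharP F 3 := (CharP.charP_iff_prime_eq_zero Nat.prime_three).mpr (by exact_mod_cast h3)
  have hf3 : Fact (Nat.Prime 3) := ⟨Nat.prime_three⟩
  have hexp : ExpChar F 3 := ExpChar.prime Nat.prime_three
  have hbij : Function.Bijective (frobenius F 3) :=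
    (Finite.injective_iff_bijective).mp (frobenius_inj F 3)
  obtain ⟨δ, hδ⟩ := hbij.2 γ
  rw [frobenius_def] at hδ
  have hδ0 : δ ≠ 0 := by
    rintro rfl
    rw [zero_pow (by norm_num)] at hδ
    exact hγ0 hδ.symm
  obtain ⟨k, hk⟩ := hγ δ hδ0
  have : γ = (γ ^ 3) ^ k := by
    rw [← pow_mul, mul_comm, pow_mul, ← hk, hδ]
  rw [this]; exact pow_mem h k

/-- characteristic two -/
theorem two_case [Fintype F] (K : Subfield F) (γ : F) (hγ0 : γ ≠ 0)
    (hγ : ∀ x : F, x ≠ 0 → ∃ k : ℕ, x = γ ^ k) (h : γ ^ 3 ∈ K) (hq : Fintype.card F ≠ 4) : γ ∈ K := by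
  classical
  have hK2 : 2 ≤ Fintype.card K := Fintype.one_lt_card
  have h1 : Fintype.card F ≤ 1 + 3 * (Fintype.card K - 1) := by
    let f : Option (Fin 3 × Kˣ) → F := fun o => match o with
      | none => 0
      | some (i, k) => γ ^ i.val * ((k : K) : F)
    have hf : Function.Surjective f := by
      intro x
      by_cases hx : x = 0
      · exact ⟨none, hx.symm⟩
      · obtain ⟨k, hk⟩ := hγ x hx
        have hne : (⟨γ ^ 3, h⟩ : K) ^ (k / 3) ≠ 0 := by
          apply pow_ne_zero
          intro h0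
          exact pow_ne_zero 3 hγ0 (congrArg Subtype.val h0)
        refine ⟨some (⟨k % 3, Nat.mod_lt _ (by norm_num)⟩, Units.mk0 _ hne), ?_⟩
        change γ ^ (k % 3) * (((⟨γ ^ 3, h⟩ : K) ^ (k / 3) : K) : F) = x
        have : (((⟨γ ^ 3, h⟩ : K) ^ (k / 3) : K) : F) = (γ ^ 3) ^ (k / 3) := by
          rfl
        rw [this, hk, ← pow_mul, ← pow_add, Nat.mod_add_div]
    have := Fintype.card_le_of_surjective f hf
    rw [Fintype.card_option, Fintype.card_prod, Fintype.card_fin, Fintype.card_units] at this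
    omega
  have h2 : Fintype.card F = Fintype.card K ^ Module.finrank K F := Module.card_eq_pow_finrank
  have h3 : Fintype.card F ≤ Fintype.card K := by
    by_contra hcon
    push Not at hcon
    have hd : 2 ≤ Module.finrank K F := by
      by_contra hd
      push Not at hd
      interval_cases hh : Module.finrank K F
      · rw [pow_zero] at h2; omega
      · rw [pow_one] at h2; omega
    have h4 : Fintype.card K ^ 2 ≤ Fintype.card F := by
      rw [h2]; exact Nat.pow_le_pow_right (by omega) hd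
    have h5 : Fintype.card K = 2 := by
      obtain ⟨m, hm⟩ := Nat.exists_eq_add_of_le hK2
      rw [hm] at h1 h4 ⊢
      have h1' : Fintype.card F ≤ 1 + 3 * (m + 1) := by omega
      have h6 := h4.trans h1'
      by_contra hm0
      have : 1 ≤ m := by omega
      nlinarith
    rw [h5] at h1 h4
    omega
  have h4 : Function.Surjective (Subtype.val : K → F) := by
    have hinj : Function.Injective (Subtype.val : K → F) := Subtype.val_injective
    exact ((Fintype.bijective_iff_injective_and_card _).mpr ⟨hinj, le_antisymm (Fintype.card_le_of_injective _ hinj) h3⟩).2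
  obtain ⟨y, hy⟩ := h4 γ
  rw [← hy]; exact y.2

theorem C3 : Cmat 3 F = !![0, 0, 1; 1, 0, -3; 0, 1, 3] := by
  have c0 : (cc 3 0 : F) = 1 := by
    have : cc 3 0 = 1 := by decide
    rw [this]; simp
  have c1 : (cc 3 1 : F) = -3 := by
    have : cc 3 1 = -3 := by decide
    rw [this]; simp
  have c2 : (cc 3 2 : F) = 3 := by
    have : cc 3 2 = 3 := by decide
    rw [this]; simp
  ext i j
  fin_cases i <;> fin_cases j <;> simp [Cmat, c0, c1, c2]

theorem e0 : ee 3 F 0 = ![1, 0, 0] := by ext i; fin_cases i <;> simp [ee]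
theorem e1 : ee 3 F 1 = ![0, 1, 0] := by ext i; fin_cases i <;> simp [ee]
theorem e2 : ee 3 F 2 = ![0, 0, 1] := by ext i; fin_cases i <;> simp [ee]

section main

variable {H : Subgroup (Matrix.SpecialLinearGroup (Fin 3) F)} {C : Matrix.SpecialLinearGroup (Fin 3) F}
  (hC : C ∈ H) (hCm : (C : Matrix (Fin 3) (Fin 3) F) = !![0, 0, 1; 1, 0, -3; 0, 1, 3])

include hC hCm

theorem back1 {x : F} (h : R H (ee 3 F 1) (x • ee 3 F 0)) : R H (ee 3 F 0) (x • ee 3 F 2) := by
  have e : ee 3 F 1 = (C : Matrix (Fin 3) (Fin 3) F) *ᵥ ee 3 F 0 := by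
    rw [hCm, e0, e1]; ext i; fin_cases i <;> simp
  rw [e] at h
  have := h.conj' hC
  have e' : (x • ee 3 F 0) ᵥ* (C : Matrix (Fin 3) (Fin 3) F) = x • ee 3 F 2 := by
    rw [hCm, e0, e2]; ext i; fin_cases i <;> simp
  rwa [e'] at this

theorem fwd1 {x : F} (h : R H (ee 3 F 1) (x • ee 3 F 0)) : R H (ee 3 F 2) (x • (ee 3 F 1 + (3 : F) • ee 3 F 0)) := by
  have e : ee 3 F 2 = (C : Matrix (Fin 3) (Fin 3) F) *ᵥ ee 3 F 1 := by
    rw [hCm, e2, e1]; ext i; fin_cases i <;> simp
  rw [e]
  refine h.conj hC ?_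
  rw [hCm, e0, e1]; ext i; fin_cases i <;> simp

theorem mulA {a b c d : F} (ha : R H (ee 3 F 1) (a • ee 3 F 0)) (hb : R H (ee 3 F 1) (b • ee 3 F 0))
    (hc : R H (ee 3 F 1) (c • ee 3 F 0)) (hd : R H (ee 3 F 1) (d • ee 3 F 0)) :
    R H (ee 3 F 2) ((b * d) • ee 3 F 0) ∧ R H (ee 3 F 1) ((a * b * c * d) • ee 3 F 0) := by
  -- `e₁ ⊗ e₂` with coefficient `a c`
  have h1 : R H (ee 3 F 1) ((a * c) • ee 3 F 2) :=
    R.mul_ee (by norm_num) (by norm_num) a c ha (back1 hC hCm hc)
  -- `e₂ ⊗ e₀` with coefficient `b d`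
  have h2 : R H (ee 3 F 2) ((b * d) • ee 3 F 0) := by
    have := R.comm hd (fwd1 hC hCm hb) (by rw [smul_dotProduct, ee_dot_ne (by norm_num), smul_zero]) (c := b) (by
      rw [smul_dotProduct, add_dotProduct, smul_dotProduct, ee_dot_self (by norm_num), ee_dot_ne (by norm_num)]; simp)
    rwa [smul_smul] at this
  refine ⟨h2, ?_⟩
  have := R.mul_ee (by norm_num) (by norm_num) _ _ h1 h2
  have e : a * c * (b * d) = a * b * c * d := by ring
  rwa [e] at this

end main

theorem gen_case [Fintype F] {H : Subgroup (Matrix.SpecialLinearGroup (Fin 3) F)} {C : Matrix.SpecialLinearGroup (Fin 3) F}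
    (hC : C ∈ H) (hCm : (C : Matrix (Fin 3) (Fin 3) F) = !![0, 0, 1; 1, 0, -3; 0, 1, 3])
    (lam : F) (hκ : 12 + lam ^ 2 ≠ 0) (b : Matrix.SpecialLinearGroup (Fin 3) F) (hb : b ∈ H)
    (hbm : (b : Matrix (Fin 3) (Fin 3) F) = !![-1, 0, 0; -(6 + lam ^ 2), -1, lam; -lam, 0, 1])
    (hK : ∀ K : Subfield F, (12 + lam ^ 2) ^ 3 ∈ K → lam * (12 + lam ^ 2) ∈ K → ∀ x : F, x ∈ K) :
    ∀ x : F, R H (ee 3 F 1) (x • ee 3 F 0) := by
  have hκA : R H (ee 3 F 1) ((12 + lam ^ 2) • ee 3 F 0) := by
    refine ⟨?_, b * b, mul_mem hb hb, ?_⟩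
    · rw [smul_dotProduct, ee_dot_ne (by norm_num), smul_zero]
    · rw [coe_mul', hbm, e0, e1]
      ext i j
      fin_cases i <;> fin_cases j <;> simp [Matrix.mul_apply, Fin.sum_univ_three, vecMulVec_apply]
      ring
  let A : AddSubgroup F :=
    { carrier := {x | R H (ee 3 F 1) (x • ee 3 F 0)}
      add_mem' := fun {x y} hx hy => by
        change R H (ee 3 F 1) ((x + y) • ee 3 F 0)
        rw [add_smul]; exact R.add hx hy
      zero_mem' := by
        change R H (ee 3 F 1) ((0 : F) • ee 3 F 0)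
        rw [zero_smul]; exact R.zero_right
      neg_mem' := fun {x} hx => by
        change R H (ee 3 F 1) ((-x) • ee 3 F 0)
        rw [neg_smul]; exact R.neg hx }
  obtain ⟨K, hK1, hK2⟩ := exists_subfield A (fun a b c d ha hb hc hd => (mulA hC hCm ha hb hc hd).2)
    (12 + lam ^ 2) hκ hκA
  have hl : lam * (12 + lam ^ 2) ∈ K := by
    rw [hK1]
    have h1 := (mulA hC hCm hκA hκA hκA hκA).1
    have h2 : R H ((b : Matrix (Fin 3) (Fin 3) F) *ᵥ ee 3 F 2) (-(((12 + lam ^ 2) * (12 + lam ^ 2)) • ee 3 F 0)) := by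
      refine h1.conj hb ?_
      rw [hbm, e0]; ext i; fin_cases i <;> simp
    have e : (b : Matrix (Fin 3) (Fin 3) F) *ᵥ ee 3 F 2 = ee 3 F 2 + lam • ee 3 F 1 := by
      rw [hbm, e1, e2]; ext i; fin_cases i <;> simp
    rw [e] at h2
    have h3 : R H (-ee 3 F 2) (-(((12 + lam ^ 2) * (12 + lam ^ 2)) • ee 3 F 0)) := by
      have : R H (ee 3 F 2) ((-1 : F) • (-(((12 + lam ^ 2) * (12 + lam ^ 2)) • ee 3 F 0))) := by
        rw [smul_neg, neg_one_smul, neg_neg]; exact h1
      have := R.smul_right (neg_ne_zero.mpr one_ne_zero) this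
      rwa [neg_one_smul] at this
    have h4 := h2.add_left h3
    have e2 : ee 3 F 2 + lam • ee 3 F 1 + -ee 3 F 2 = lam • ee 3 F 1 := by abel
    rw [e2] at h4
    have h5 := h4.smul_left.neg
    change R H (ee 3 F 1) (_ • ee 3 F 0)
    have e3 : -(lam • -(((12 + lam ^ 2) * (12 + lam ^ 2)) • ee 3 F 0)) = ((12 + lam ^ 2) * (lam * (12 + lam ^ 2))) • ee 3 F 0 := by
      rw [smul_neg, neg_neg, smul_smul]; congr 1; ring
    rwa [e3] at h5
  intro x
  have hx := (hK1 ((12 + lam ^ 2)⁻¹ * x)).mp (hK K hK2 hl _)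
  rw [mul_inv_cancel_left₀ hκ] at hx
  exact hx

/-- the exceptional field with four elements -/
theorem four_case [Fintype F] {H : Subgroup (Matrix.SpecialLinearGroup (Fin 3) F)} {C : Matrix.SpecialLinearGroup (Fin 3) F}
    (hC : C ∈ H) (hCm : (C : Matrix (Fin 3) (Fin 3) F) = !![0, 0, 1; 1, 0, -3; 0, 1, 3])
    (h2 : (2 : F) = 0) (γ : F) (hγ : γ ^ 2 = γ + 1) (D : Matrix.SpecialLinearGroup (Fin 3) F) (hD : D ∈ H)
    (hDm : (D : Matrix (Fin 3) (Fin 3) F) = !![0, 1, γ; γ, γ + 1, 0; 1, 1, γ]) :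
    R H (ee 3 F 1) (γ • ee 3 F 0) ∧ R H (ee 3 F 0) (ee 3 F 2) := by
  constructor
  · have h1 : R H ![1, 0, 1] ![1, 1, 1] := by
      refine ⟨?_, C * C, mul_mem hC hC, ?_⟩
      · simp [dotProduct, Fin.sum_univ_three]
        linear_combination h2
      · rw [coe_mul', hCm]
        ext i j
        fin_cases i <;> fin_cases j <;> simp [Matrix.mul_apply, Fin.sum_univ_three, vecMulVec_apply]
        all_goals grind
    have h3 : R H ((D : Matrix (Fin 3) (Fin 3) F) *ᵥ ((γ + 1) • ![0, 0, 1])) ![1, 1, 1] := by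
      convert h1 using 1
      rw [hDm]
      ext i; fin_cases i <;> simp
      all_goals grind
    have h4 := (h3.conj' hD).smul_left
    have h5 : R H ((C : Matrix (Fin 3) (Fin 3) F) *ᵥ ee 3 F 1) ![γ, γ, 0] := by
      convert h4 using 1
      · rw [hCm, e1]
        ext i; fin_cases i <;> simp
      · rw [hDm]
        ext i; fin_cases i <;> simp
        all_goals grind
    have h6 := h5.conj' hC
    convert h6 using 1
    rw [hCm, e0]
    ext i; fin_cases i <;> simp
    all_goals grind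
  · have h1 : R H ![1, 1, 0] ![1, 1, γ + 1] := by
      refine ⟨?_, D * D, mul_mem hD hD, ?_⟩
      · simp [dotProduct, Fin.sum_univ_three]
        linear_combination h2
      · rw [coe_mul', hDm]
        ext i j
        fin_cases i <;> fin_cases j <;> simp [Matrix.mul_apply, Fin.sum_univ_three, vecMulVec_apply]
        all_goals grind
    have h3 : R H ((C : Matrix (Fin 3) (Fin 3) F) *ᵥ ![0, 1, 1]) ![1, 1, γ + 1] := by
      convert h1 using 1
      rw [hCm]
      ext i; fin_cases i <;> simp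
      all_goals grind
    have h4 := h3.conj' hC
    have h5 : R H ((D : Matrix (Fin 3) (Fin 3) F) *ᵥ ![0, 1, 1]) (γ • ![0, 1, 1]) := by
      refine h4.conj hD ?_
      rw [hDm, hCm]
      ext i; fin_cases i <;> simp
      all_goals grind
    have h6 : R H ![1, 1, 1] ![0, 1, 1] := by
      have : R H ((γ + 1) • ![1, 1, 1]) (γ • ![0, 1, 1]) := by
        convert h5 using 1
        rw [hDm]
        ext i; fin_cases i <;> simp
        all_goals grind
      have := this.smul_left
      convert this using 1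
      rw [smul_smul]
      ext i; fin_cases i <;> simp
      all_goals grind
    have h7 := h6.conj hC (ψ := ee 3 F 2) (by
      rw [hCm, e2]
      ext i; fin_cases i <;> simp
      all_goals grind)
    convert h7 using 1
    rw [hCm, e0]
    ext i; fin_cases i <;> simp
    all_goals grind

/-- a matrix of determinant one as an element of the special linear group -/
def mk (S : Matrix (Fin 3) (Fin 3) F) (hS : S.det = 1) : Matrix.SpecialLinearGroup (Fin 3) F := ⟨S, hS⟩

theorem mk_coe (S : Matrix (Fin 3) (Fin 3) F) (hS : S.det = 1) : ((mk S hS : Matrix.SpecialLinearGroup (Fin 3) F) : Matrix (Fin 3) (Fin 3) F) = S := rfl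

/-- the common frame: `u = C` and `g = S`, with `D S = S C`. -/
theorem frame [Fintype F] (S : Matrix (Fin 3) (Fin 3) F) (hS : S.det = 1) (γ : F)
    (hγ : ∀ x : F, x ≠ 0 → ∃ k : ℕ, x = γ ^ k)
    (h : ∀ (H : Subgroup (Matrix.SpecialLinearGroup (Fin 3) F)) (C g : Matrix.SpecialLinearGroup (Fin 3) F),
      C ∈ H → g * C * g⁻¹ ∈ H → (C : Matrix (Fin 3) (Fin 3) F) = !![0, 0, 1; 1, 0, -3; 0, 1, 3] →
      (g : Matrix (Fin 3) (Fin 3) F) = S → R H (ee 3 F 0) (ee 3 F 2) ∧ R H (ee 3 F 1) (γ • ee 3 F 0)) :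
    ∃ u g : Matrix.SpecialLinearGroup (Fin 3) F, IsNilpotent ((u : Matrix (Fin 3) (Fin 3) F) - 1) ∧ ((u : Matrix (Fin 3) (Fin 3) F) - 1) ^ (3 - 1) ≠ 0 ∧
      Subgroup.closure ({u, g * u * g⁻¹} : Set (Matrix.SpecialLinearGroup (Fin 3) F)) = ⊤ := by
  refine ⟨Cs 3 F (by norm_num), mk S hS, ⟨3, Cmat_sub_one_pow (by norm_num)⟩, Cmat_sub_one_pow_ne (by norm_num), ?_⟩
  have hC : Cs 3 F (by norm_num) ∈ Subgroup.closure ({Cs 3 F (by norm_num),
      mk S hS * Cs 3 F (by norm_num) * (mk S hS)⁻¹} :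
      Set (Matrix.SpecialLinearGroup (Fin 3) F)) := Subgroup.subset_closure (by simp)
  obtain ⟨h1, h2⟩ := h _ _ _ hC (Subgroup.subset_closure (Set.mem_insert_of_mem _ rfl)) C3 rfl
  exact eq_top_of_gen (le_refl 3) ((shift_Cs (by norm_num) _ hC).all (by norm_num) h1) γ hγ 1 0 (by norm_num)
    (by norm_num) (by norm_num) h2

theorem eq_mul_inv_of {g C b : Matrix.SpecialLinearGroup (Fin 3) F}
    (h : (b : Matrix (Fin 3) (Fin 3) F) * (g : Matrix (Fin 3) (Fin 3) F) = (g : Matrix (Fin 3) (Fin 3) F) * (C : Matrix (Fin 3) (Fin 3) F)) :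
    g * C * g⁻¹ = b := by
  have : b * g = g * C := Subtype.ext h
  rw [← this, mul_inv_cancel_right]

/-- Let F be a finite field. Then SL_3(F) is generated by two conjugate regular unipotent elements: there are u with u − 1 nilpotent and (u − 1)² ≠ 0, and g, such that u and g u g⁻¹ generate SL_3(F). -/
theorem result {F : Type*} [Field F] [Fintype F] :
    ∃ u g : Matrix.SpecialLinearGroup (Fin 3) F, IsNilpotent ((u : Matrix (Fin 3) (Fin 3) F) - 1) ∧ ((u : Matrix (Fin 3) (Fin 3) F) - 1) ^ (3 - 1) ≠ 0 ∧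
      Subgroup.closure ({u, g * u * g⁻¹} : Set (Matrix.SpecialLinearGroup (Fin 3) F)) = ⊤ := by
  obtain ⟨γ, hγ0, hγ⟩ := exists_gen_pow F
  by_cases h4 : Fintype.card F = 4
  · have h2 : (2 : F) = 0 := by
      have : ((Fintype.card F : ℕ) : F) = 0 := FiniteField.cast_card_eq_zero F
      rw [h4] at this
      have h5 : (2 : F) * 2 = 0 := by
        push_cast at this
        linear_combination this
      exact mul_self_eq_zero.mp h5
    have hg : γ ^ 2 = γ + 1 := by
      have h3 : γ ^ 3 = 1 := by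
        have := FiniteField.pow_card_sub_one_eq_one γ hγ0
        rwa [h4] at this
      have hne : γ - 1 ≠ 0 := by
        intro h
        have hγ1 : γ = 1 := sub_eq_zero.mp h
        have : Fintype.card F ≤ 2 := by
          have hs : Function.Surjective (fun b : Bool => if b then (1 : F) else 0) := by
            intro x
            by_cases hx : x = 0
            · exact ⟨false, by simp [hx]⟩
            · obtain ⟨k, hk⟩ := hγ x hx
              refine ⟨true, ?_⟩
              rw [hk, hγ1, one_pow]; rfl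
          have := Fintype.card_le_of_surjective _ hs
          simpa using this
        omega
      have h5 : (γ - 1) * (γ ^ 2 + γ + 1) = 0 := by linear_combination h3
      have h6 := (mul_eq_zero.mp h5).resolve_left hne
      linear_combination h6 - (γ + 1) * h2
    refine frame !![1, 0, 0; 0, γ, 1; 0, 1, 0] ?_ γ hγ ?_
    · rw [det_fin_three]
      simp
      linear_combination (-1 : F) * h2
    · intro H C g hC hD hCm hgm
      have hdet : (!![0, 1, γ; γ, γ + 1, 0; 1, 1, γ] : Matrix (Fin 3) (Fin 3) F).det = 1 := by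
        rw [det_fin_three]
        simp
        grind
      have hDe : g * C * g⁻¹ = mk _ hdet := by
        apply eq_mul_inv_of
        rw [hCm, hgm, mk_coe]
        ext i j
        fin_cases i <;> fin_cases j <;> simp [Matrix.mul_apply, Fin.sum_univ_three]
        all_goals grind
      rw [hDe] at hD
      obtain ⟨h1, h2⟩ := four_case hC hCm h2 γ hg _ hD rfl
      exact ⟨h2, h1⟩
  · have key : ∀ lam : F, 12 + lam ^ 2 ≠ 0 → (∀ K : Subfield F, (12 + lam ^ 2) ^ 3 ∈ K → lam * (12 + lam ^ 2) ∈ K → ∀ x : F, x ∈ K) →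
        ∃ u g : Matrix.SpecialLinearGroup (Fin 3) F, IsNilpotent ((u : Matrix (Fin 3) (Fin 3) F) - 1) ∧ ((u : Matrix (Fin 3) (Fin 3) F) - 1) ^ (3 - 1) ≠ 0 ∧
          Subgroup.closure ({u, g * u * g⁻¹} : Set (Matrix.SpecialLinearGroup (Fin 3) F)) = ⊤ := by
      intro lam hk hK
      refine frame !![1, 0, 0; 0, -1, -lam; 0, 0, -1] ?_ γ hγ ?_
      · rw [det_fin_three]
        simp
      · intro H C g hC hD hCm hgm
        have hdet : (!![-1, 0, 0; -(6 + lam ^ 2), -1, lam; -lam, 0, 1] : Matrix (Fin 3) (Fin 3) F).det = 1 := by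
          rw [det_fin_three]
          simp
        have hDe : g * C * g⁻¹ = mk _ hdet * C := by
          apply eq_mul_inv_of
          rw [coe_mul', hCm, hgm, mk_coe]
          ext i j
          fin_cases i <;> fin_cases j <;> simp [Matrix.mul_apply, Fin.sum_univ_three]
          all_goals ring
        have hb : mk _ hdet ∈ H := by
          have := mul_mem hD (inv_mem hC)
          rwa [hDe, mul_inv_cancel_right] at this
        have main := gen_case hC hCm lam hk _ hb rfl hK
        refine ⟨?_, main γ⟩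
        have h1 := back1 hC hCm (main 1)
        rwa [one_smul] at h1
    by_cases h2 : (2 : F) = 0
    · refine key γ ?_ ?_
      · have : (12 : F) + γ ^ 2 = γ ^ 2 := by linear_combination (6 : F) * h2
        rw [this]; exact pow_ne_zero 2 hγ0
      · intro K _ hK2 x
        have e : γ * (12 + γ ^ 2) = γ ^ 3 := by linear_combination (6 * γ) * h2
        rw [e] at hK2
        exact subfield_top K γ hγ (two_case K γ hγ0 hγ hK2 h4) x
    · by_cases h3 : (3 : F) = 0
      · refine key γ ?_ ?_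
        · have : (12 : F) + γ ^ 2 = γ ^ 2 := by linear_combination (4 : F) * h3
          rw [this]; exact pow_ne_zero 2 hγ0
        · intro K _ hK2 x
          have e : γ * (12 + γ ^ 2) = γ ^ 3 := by linear_combination (4 * γ) * h3
          rw [e] at hK2
          exact subfield_top K γ hγ (three_case K h3 γ hγ0 hγ hK2) x
      · by_cases h5 : 12 + γ ^ 2 = 0
        · have h6 : 12 + (2 * γ) ^ 2 ≠ 0 := by
            intro h7
            have h8 : (2 : F) * 2 * (3 * 3) = 0 := by linear_combination 4 * h5 - h7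
            exact mul_ne_zero (mul_ne_zero h2 h2) (mul_ne_zero h3 h3) h8
          exact key (2 * γ) h6 (fun K hK1 hK2 x => subfield_top K γ hγ
            (five_case K h2 h3 γ (2 * γ) (Or.inr rfl) h6 hK1 hK2) x)
        · exact key γ h5 (fun K hK1 hK2 x => subfield_top K γ hγ
            (five_case K h2 h3 γ γ (Or.inl rfl) h5 hK1 hK2) x)

end Cfsg.Agent.S2278
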