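import Cfsg.Statements.S2279
import Cfsg.Agent.LibReg3

set_option autoImplicit false
open Cfsg

namespace Cfsg.Agent.S2279

open Matrix CfsgLib.Reg1 CfsgLib.Reg2 CfsgLib.Reg3

variable {F : Type*} [Field F] {n : ℕ}

theorem neg_left {H : Subgroup (Matrix.SpecialLinearGroup (Fin n) F)} {v φ : Fin n → F} (h : R H v φ) : R H (-v) φ := by
  have h1 : R H v ((-1 : F) • φ) := by rw [neg_one_smul]; exact h.neg
  have h2 := h1.smul_right (c := (-1 : F)) (by simp)
  rwa [neg_one_smul] at h2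

/-- removing a rational part of the centre -/
theorem sub_left {H : Subgroup (Matrix.SpecialLinearGroup (Fin n) F)} {v w φ : Fin n → F} (h : R H (v + w) φ)
    (h' : R H v φ) : R H w φ := by
  have := h.add_left (neg_left h')
  have e : v + w + -v = w := by abel
  rwa [e] at this

theorem two_gen [Fintype F] (hn : 4 ≤ n) (H : Subgroup (Matrix.SpecialLinearGroup (Fin n) F))
    (hC : Cs n F (by omega) ∈ H) (b : Matrix.SpecialLinearGroup (Fin n) F) (hb : b ∈ H) (ρ : ℤ) (l : F) (hl : n = 4 → l = 0)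
    (hbm : (b : Matrix (Fin n) (Fin n) F) = Mb n F ρ l (cc n 0) (cc n 1) (cc n 2))
    (hρ : (ρ : F) ≠ 0) (hκ : (-((ρ : F) ^ 2 + 4 * ((cc n 0 : F) * cc n 2))) ≠ 0) :
    (∀ i j, i < n → j < n → i ≠ j → R H (ee n F i) (ee n F j)) ∧ (5 ≤ n → R H (ee n F 2) (l • ee n F 0)) := by
  have hS : Shift H (Cs n F (by omega)) := shift_Cs (by omega) H hC
  have h0 : (cc n 0 : F) * cc n 0 = 1 := by exact_mod_cast congrArg (Int.cast : ℤ → F) (cc_zero n)
  have h20 : R H (ee n F 2) (ee n F 0) := by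
    have h1 : R H (ee n F 2) ((((-(ρ ^ 2 + 4 * (cc n 0 * cc n 2)) : ℤ)) : F) • ee n F 0) := by
      refine ⟨by rw [smul_dotProduct, ee_dot_ne (by omega)]; simp, b * b, mul_mem hb hb, ?_⟩
      rw [coe_mul', hbm, Mb_sq hn _ _ _ _ _ hl]
      push_cast
      rfl
    exact R.of_int_smul (by push_cast; exact hκ) h1
  have h30 : R H (ee n F 3) (ee n F 0) := by
    -- conjugate by C
    have h1 : R H (ee n F 3) (ee n F 1 + (-(cc n 0 : F) * cc n 1) • ee n F 0) := by
      have := h20.conj hC (ψ := ee n F 1 + (-(cc n 0 : F) * cc n 1) • ee n F 0) (by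
        change _ ᵥ* Cmat n F = _
        ext j
        rw [add_vecMul, smul_vecMul]
        rw [show ee n F 1 = ee n F (⟨1, by omega⟩ : Fin n).val from rfl,
          show ee n F 0 = ee n F (⟨0, by omega⟩ : Fin n).val from rfl]
        rw [Pi.add_apply, Pi.smul_apply, vecMul_ee, vecMul_ee]
        simp only [Cmat, Matrix.of_apply, ee_apply]
        by_cases hj : j.val = n - 1
        · rw [if_pos hj, if_pos hj, if_neg (by omega)]
          simp only [smul_eq_mul]
          linear_combination (-(cc n 1 : F)) * h0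
        · rw [if_neg hj, if_neg hj]
          by_cases h : j.val = 0
          · simp [h]
          · have h' : ¬ 0 = j.val := fun h2 => h h2.symm
            simp [h, h'])
      rwa [show ((Cs n F (by omega) : Matrix.SpecialLinearGroup (Fin n) F) : Matrix (Fin n) (Fin n) F) = Cmat n F from rfl,
        Cmat_ee (by omega)] at this
    -- conjugate by b
    have hb3 : (b : Matrix (Fin n) (Fin n) F) *ᵥ ee n F 3 = ee n F 3 := by
      rw [hbm, Mb_mulVec, ee_dot_ne (by omega : 0 ≠ 3), ee_dot_ne (by omega : 1 ≠ 3), ee_dot_ne (by omega : 2 ≠ 3)]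
      by_cases h4 : n = 4
      · rw [hl h4]; simp
      · rw [ee_dot_ne (by omega)]; simp
    have h2 := h1
    rw [← hb3] at h2
    have h3 := h2.conj' hb
    have e : (ee n F 1 + (-(cc n 0 : F) * cc n 1) • ee n F 0) ᵥ* (b : Matrix (Fin n) (Fin n) F) =
        (ee n F 1 + (-(cc n 0 : F) * cc n 1) • ee n F 0) - (ρ : F) • ee n F 0 := by
      rw [hbm]
      unfold Mb
      rw [vecMul_add, vecMul_add, vecMul_one, vecMul_vecMulVec, vecMul_vecMulVec]
      have z1 : ee n F 1 ⬝ᵥ ee n F 1 = (1 : F) := ee_dot_self (by omega)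
      have z0 : ee n F 0 ⬝ᵥ ee n F 0 = (1 : F) := ee_dot_self (by omega)
      have w1 : ee n F 1 ⬝ᵥ ee n F 0 = (0 : F) := ee_dot_ne (by omega)
      have w2 : ee n F 1 ⬝ᵥ ee n F 2 = (0 : F) := ee_dot_ne (by omega)
      have w3 : ee n F 1 ⬝ᵥ ee n F 3 = (0 : F) := ee_dot_ne (by omega)
      have w4 : ee n F 0 ⬝ᵥ ee n F 1 = (0 : F) := ee_dot_ne (by omega)
      have w5 : ee n F 0 ⬝ᵥ ee n F 2 = (0 : F) := ee_dot_ne (by omega)
      have w6 : ee n F 0 ⬝ᵥ ee n F 3 = (0 : F) := ee_dot_ne (by omega)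
      simp only [sv, dotProduct_add, add_dotProduct, smul_dotProduct, dotProduct_smul, z1, z0, w1, w2, w3, w4, w5, w6]
      ext i
      simp only [Pi.add_apply, Pi.sub_apply, Pi.smul_apply, smul_eq_mul]
      ring
    rw [e] at h3
    have h4 := h1.sub h3
    rw [sub_sub_cancel] at h4
    exact R.of_int_smul hρ h4
  have hall := hS.all' hn h20 h30
  refine ⟨hall, fun h5 => ?_⟩
  have h1 := hall (n - 1) 0 (by omega) (by omega) (by omega)
  have h2 := h1.conj hb (ψ := -ee n F 0) (by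
    rw [hbm]
    unfold Mb
    rw [vecMul_add, vecMul_add, vecMul_one, vecMul_vecMulVec, vecMul_vecMulVec]
    have z0 : ee n F 0 ⬝ᵥ ee n F 0 = (1 : F) := ee_dot_self (by omega)
    have w4 : ee n F 0 ⬝ᵥ ee n F 1 = (0 : F) := ee_dot_ne (by omega)
    have w5 : ee n F 0 ⬝ᵥ ee n F 2 = (0 : F) := ee_dot_ne (by omega)
    have w6 : ee n F 0 ⬝ᵥ ee n F 3 = (0 : F) := ee_dot_ne (by omega)
    simp only [sv, dotProduct_add, neg_dotProduct, smul_dotProduct, dotProduct_smul, z0, w4, w5, w6]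
    ext i
    simp only [Pi.add_apply, Pi.neg_apply, Pi.smul_apply, smul_eq_mul]
    ring)
  have hbl : (b : Matrix (Fin n) (Fin n) F) *ᵥ ee n F (n - 1) = ee n F (n - 1) + l • ee n F 2 := by
    rw [hbm, Mb_mulVec, ee_dot_ne (by omega : 0 ≠ n - 1), ee_dot_ne (by omega : 1 ≠ n - 1),
      ee_dot_ne (by omega : 2 ≠ n - 1), ee_dot_self (by omega)]
    simp
  rw [hbl] at h2
  have h3 := h2.neg
  rw [neg_neg] at h3
  exact (sub_left h3 h1).smul_left

theorem cc_zero_two (hn : 2 ≤ n) : cc n 0 * cc n 2 = (n.choose 2 : ℤ) := by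
  simp only [cc, Nat.sub_zero, Nat.choose_zero_right, Nat.cast_one, mul_one]
  obtain ⟨k, rfl⟩ := Nat.exists_eq_add_of_le hn
  have h : ((-1 : ℤ)) ^ (2 + k) * (-1) ^ (2 + k - 2) = 1 := by
    rw [← pow_add]
    have : 2 + k + (2 + k - 2) = 2 * (k + 1) := by omega
    rw [this]
    exact (even_two_mul _).neg_one_pow
  linear_combination ((2 + k).choose 2 : ℤ) * h

theorem exists_rho (hn : 2 ≤ n) : ∃ ρ : ℤ, (ρ : F) ≠ 0 ∧ (-((ρ : F) ^ 2 + 4 * ((cc n 0 : F) * cc n 2))) ≠ 0 := by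
  have hm : (cc n 0 : F) * cc n 2 = ((n.choose 2 : ℤ) : F) := by
    rw [← cc_zero_two hn]; push_cast; rfl
  rw [hm]
  by_cases h1 : (-((1 : F) ^ 2 + 4 * ((n.choose 2 : ℤ) : F))) ≠ 0
  · exact ⟨1, by simp, by simpa using h1⟩
  · push Not at h1
    have h2 : (2 : F) ≠ 0 := by
      intro h2
      have h4 : (4 : F) = 2 * 2 := by norm_num
      rw [h4, h2] at h1
      simp at h1
    by_cases h3 : (3 : F) = 0
    · exfalso
      have h3' : ((3 : ℤ) : F) = 0 := by push_cast; exact h3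
      have hnn : 2 * (n.choose 2 : ℤ) = (n : ℤ) * (n - 1) := by
        have h5 : 2 * n.choose 2 = n * (n - 1) := by
          rw [Nat.choose_two_right, Nat.mul_div_cancel' (Nat.even_mul_pred_self n).two_dvd]
        have h6 : ((n - 1 : ℕ) : ℤ) = (n : ℤ) - 1 := by push_cast [Nat.cast_sub (show 1 ≤ n by omega)]; ring
        have h7 := congrArg (Nat.cast : ℕ → ℤ) h5
        push_cast at h7
        rw [h6] at h7
        exact h7
      -- (2n-1)^2 + 1 = 0 in F
      set k : ℤ := 2 * n - 1 with hk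
      have h8 : ((k ^ 2 + 1 : ℤ) : F) = 0 := by
        have h9 : (k ^ 2 + 1 : ℤ) = 2 * (1 ^ 2 + 4 * (n.choose 2 : ℤ)) := by
          rw [hk]; linear_combination (-4) * hnn
        rw [h9]
        push_cast
        push_cast at h1
        linear_combination (-2) * h1
      have h10 : (k ^ 2 + 1) % 3 ≠ 0 := by
        have h11 : k % 3 = 0 ∨ k % 3 = 1 ∨ k % 3 = 2 := by omega
        rcases h11 with h | h | h <;> simp [pow_two, Int.add_emod, Int.mul_emod, h]
      have h12 : (((k ^ 2 + 1) % 3 : ℤ) : F) = 0 := by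
        have h13 : (k ^ 2 + 1) % 3 = (k ^ 2 + 1) - 3 * ((k ^ 2 + 1) / 3) := by omega
        rw [h13, Int.cast_sub, h8, Int.cast_mul, h3', zero_mul, sub_zero]
      have h14 : (k ^ 2 + 1) % 3 = 1 ∨ (k ^ 2 + 1) % 3 = 2 := by omega
      rcases h14 with h | h
      · rw [h] at h12; simp at h12
      · rw [h] at h12; push_cast at h12; exact h2 h12
    · refine ⟨2, by push_cast; exact h2, ?_⟩
      push_cast
      push_cast at h1
      intro h4
      apply h3
      linear_combination h1 - h4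

/-- conjugate regular unipotents from `S`. -/
theorem conj_case [Fintype F] (hn : 4 ≤ n) (l : F) (hl : n = 4 → l = 0)
    (hfin : ∀ H : Subgroup (Matrix.SpecialLinearGroup (Fin n) F),
      (∀ i j, i < n → j < n → i ≠ j → R H (ee n F i) (ee n F j)) → (5 ≤ n → R H (ee n F 2) (l • ee n F 0)) → H = ⊤) :
    ∃ g : Matrix.SpecialLinearGroup (Fin n) F,
      Subgroup.closure ({Cs n F (by omega), g * Cs n F (by omega) * g⁻¹} : Set (Matrix.SpecialLinearGroup (Fin n) F)) = ⊤ := by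
  obtain ⟨ρ, hρ, hκ⟩ := exists_rho (F := F) (n := n) (by omega)
  obtain ⟨S, hS⟩ := exists_S hn (ρ : F) l
  refine ⟨S, ?_⟩
  have mC : Cs n F (by omega) ∈ Subgroup.closure ({Cs n F (by omega), S * Cs n F (by omega) * S⁻¹} :
      Set (Matrix.SpecialLinearGroup (Fin n) F)) := Subgroup.subset_closure (by simp)
  have mV : S * Cs n F (by omega) * S⁻¹ ∈ Subgroup.closure ({Cs n F (by omega), S * Cs n F (by omega) * S⁻¹} :
      Set (Matrix.SpecialLinearGroup (Fin n) F)) := Subgroup.subset_closure (by simp)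
  have hbm : (((S * Cs n F (by omega) * S⁻¹) * (Cs n F (by omega))⁻¹ : Matrix.SpecialLinearGroup (Fin n) F) :
      Matrix (Fin n) (Fin n) F) = Mb n F ρ l (cc n 0) (cc n 1) (cc n 2) := by
    have e : (S * Cs n F (by omega) * S⁻¹) * (Cs n F (by omega))⁻¹ = (S * Cs n F (by omega)) * (Cs n F (by omega) * S)⁻¹ := by
      group
    rw [e, coe_mul', coe_mul', hS]
    change Sm n F ρ l * Cmat n F * _ = _
    rw [← Mb_identity hn (ρ : F) l hl, mul_assoc (Mb n F ρ l (cc n 0) (cc n 1) (cc n 2)), mul_assoc]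
    have e2 : Cmat n F * Sm n F ρ l = ((Cs n F (by omega) * S : Matrix.SpecialLinearGroup (Fin n) F) : Matrix (Fin n) (Fin n) F) := by
      rw [coe_mul', hS]; rfl
    rw [e2, mul_inv', mul_one]
  obtain ⟨h1, h2⟩ := two_gen hn _ mC _ (mul_mem mV (inv_mem mC)) ρ l hl hbm hρ hκ
  exact hfin _ h1 h2

theorem prime_cast [Fintype F] (hp : (Fintype.card F).Prime) (x : F) : ∃ k : ℤ, (k : F) = x := by
  have : Fact (Fintype.card F).Prime := ⟨hp⟩
  have hch : CharP F (Fintype.card F) := charP_of_card_eq_prime rfl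
  obtain ⟨y, hy⟩ := (ZMod.castHom_bijective F (n := Fintype.card F) rfl).2 x
  refine ⟨(y.val : ℤ), ?_⟩
  rw [← hy, ZMod.castHom_apply, Int.cast_natCast, ZMod.natCast_val]

theorem four_aux [Fintype F] (H : Subgroup (Matrix.SpecialLinearGroup (Fin 4) F)) (mC : Cs 4 F (by omega) ∈ H)
    (bb : Matrix.SpecialLinearGroup (Fin 4) F) (mb : bb ∈ H) (b : Matrix (Fin 4) (Fin 4) F)
    (hbm : (bb : Matrix (Fin 4) (Fin 4) F) = b) (κ : ℤ) (hκ : (κ : F) ≠ 0)
    (hb2 : b * b = 1 + vecMulVec (ee 4 F 1) ((κ : F) • ee 4 F 0)) (γ : F) (hγ : ∀ x : F, x ≠ 0 → ∃ k : ℕ, x = γ ^ k)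
    (hb3 : b *ᵥ ee 4 F 3 = ee 4 F 3 + γ • ee 4 F 1) (s : ℤ) (hs : (s : F) * s = 1) (hb0 : ((s : F) • ee 4 F 0) ᵥ* b = ee 4 F 0) :
    H = ⊤ := by
  have hS := shift_Cs (by omega) _ mC
  have h10 : R H (ee 4 F 1) (ee 4 F 0) := by
    refine R.of_int_smul hκ ⟨by rw [smul_dotProduct, ee_dot_ne (by omega)]; simp, _, mul_mem mb mb, ?_⟩
    rw [coe_mul', hbm, hb2]
  have hall := hS.all (by omega) (hS.back_zero (by omega) h10)
  refine eq_top_of_gen (by omega) hall γ hγ 1 0 (by omega) (by omega) (by omega) ?_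
  have h1 := hall 3 0 (by omega) (by omega) (by omega)
  have h2 := h1.conj mb (ψ := (s : F) • ee 4 F 0) (by rw [hbm]; exact hb0)
  rw [hbm, hb3] at h2
  have h3 := h2.int_smul s
  rw [smul_smul, hs, one_smul] at h3
  exact (sub_left h3 h1).smul_left

/-- the two elements for `n = 4`. -/
theorem four_gen [Fintype F] (S T b : Matrix (Fin 4) (Fin 4) F) (hST : S * T = 1)
    (hbS : b * Cmat 4 F * S = S * Cmat 4 F) (κ : ℤ) (hκ : (κ : F) ≠ 0)
    (hb2 : b * b = 1 + vecMulVec (ee 4 F 1) ((κ : F) • ee 4 F 0)) (γ : F) (hγ : ∀ x : F, x ≠ 0 → ∃ k : ℕ, x = γ ^ k)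
    (hb3 : b *ᵥ ee 4 F 3 = ee 4 F 3 + γ • ee 4 F 1) (s : ℤ) (hs : (s : F) * s = 1) (hb0 : ((s : F) • ee 4 F 0) ᵥ* b = ee 4 F 0) :
    ∃ u v : Matrix.SpecialLinearGroup (Fin 4) F, (IsNilpotent ((u : Matrix (Fin 4) (Fin 4) F) - 1) ∧ ((u : Matrix (Fin 4) (Fin 4) F) - 1) ^ (4 - 1) ≠ 0) ∧ (IsNilpotent ((v : Matrix (Fin 4) (Fin 4) F) - 1) ∧ ((v : Matrix (Fin 4) (Fin 4) F) - 1) ^ (4 - 1) ≠ 0) ∧
      Subgroup.closure ({u, v} : Set (Matrix.SpecialLinearGroup (Fin 4) F)) = ⊤ := by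
  have hdet : (S * Cmat 4 F * T).det = 1 := by
    have h1 := congrArg Matrix.det hST
    rw [det_mul, det_one] at h1
    rw [det_mul, det_mul, Cmat_det (by norm_num), mul_one, h1]
  set v : Matrix.SpecialLinearGroup (Fin 4) F := ⟨S * Cmat 4 F * T, hdet⟩ with hv
  have hvb : (v : Matrix (Fin 4) (Fin 4) F) = b * Cmat 4 F := by
    change S * Cmat 4 F * T = _
    rw [← hbS, mul_assoc, hST, mul_one]
  refine ⟨Cs 4 F (by omega), v, reg_of_conj _ (Cmat 4 F) 1 1 (one_mul 1) (by rw [mul_one, one_mul]; rfl)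
    (Cmat_sub_one_pow (by omega)) (Cmat_sub_one_pow_ne (by omega)), reg_of_conj _ (Cmat 4 F) S T hST (by
      rw [hvb]; exact hbS) (Cmat_sub_one_pow (by omega)) (Cmat_sub_one_pow_ne (by omega)), ?_⟩
  have mC : Cs 4 F (by omega) ∈ Subgroup.closure ({Cs 4 F (by omega), v} :
      Set (Matrix.SpecialLinearGroup (Fin 4) F)) := Subgroup.subset_closure (by simp)
  have mV : v ∈ Subgroup.closure ({Cs 4 F (by omega), v} :
      Set (Matrix.SpecialLinearGroup (Fin 4) F)) := Subgroup.subset_closure (by simp)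
  have mb := mul_mem mV (inv_mem mC)
  have hbm : ((v * (Cs 4 F (by omega))⁻¹ : Matrix.SpecialLinearGroup (Fin 4) F) : Matrix (Fin 4) (Fin 4) F) = b := by
    rw [coe_mul', hvb, mul_assoc]
    have e2 : Cmat 4 F = ((Cs 4 F (by omega) : Matrix.SpecialLinearGroup (Fin 4) F) : Matrix (Fin 4) (Fin 4) F) := rfl
    rw [e2, mul_inv', mul_one]
  exact four_aux _ mC _ mb b hbm κ hκ hb2 γ hγ hb3 s hs hb0

theorem four_case [Fintype F] :
    ∃ u v : Matrix.SpecialLinearGroup (Fin 4) F, (IsNilpotent ((u : Matrix (Fin 4) (Fin 4) F) - 1) ∧ ((u : Matrix (Fin 4) (Fin 4) F) - 1) ^ (4 - 1) ≠ 0) ∧ (IsNilpotent ((v : Matrix (Fin 4) (Fin 4) F) - 1) ∧ ((v : Matrix (Fin 4) (Fin 4) F) - 1) ^ (4 - 1) ≠ 0) ∧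
      Subgroup.closure ({u, v} : Set (Matrix.SpecialLinearGroup (Fin 4) F)) = ⊤ := by
  obtain ⟨γ, hγ0, hγ⟩ := exists_gen_pow F
  have c0 : (cc 4 0 : F) = -1 := by
    have : cc 4 0 = -1 := by decide
    rw [this]; simp
  have c1 : (cc 4 1 : F) = 4 := by
    have : cc 4 1 = 4 := by decide
    rw [this]; simp
  have c2 : (cc 4 2 : F) = -6 := by
    have : cc 4 2 = -6 := by decide
    rw [this]; simp
  have c3 : (cc 4 3 : F) = 4 := by
    have : cc 4 3 = 4 := by decide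
    rw [this]; simp
  have hC : Cmat 4 F = !![0, 0, 0, -1; 1, 0, 0, 4; 0, 1, 0, -6; 0, 0, 1, 4] := by
    ext i j
    fin_cases i <;> fin_cases j <;> simp [Cmat, c0, c1, c2, c3]
  by_cases h2 : (2 : F) = 0
  · refine four_gen !![1, 0, 0, 0; 0, 1, 1, 1 + γ; 0, 0, 1, 1; 0, 0, 0, 1] !![1, 0, 0, 0; 0, 1, -1, -γ; 0, 0, 1, -1; 0, 0, 0, 1]
      !![1, 0, 0, 0; 1, 1, 1, γ; γ + 1, 0, 1, 0; 1, 0, 0, 1] ?_ ?_ 1 (by simp) ?_ γ hγ ?_ 1 (by simp) ?_
    · ext i j
      fin_cases i <;> fin_cases j <;> simp [Matrix.mul_apply, Fin.sum_univ_four]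
    · rw [hC]
      ext i j
      fin_cases i <;> fin_cases j <;> simp [Matrix.mul_apply, Fin.sum_univ_four]
      all_goals first
        | linear_combination (γ - 2) * h2
        | linear_combination (-2 : F) * h2
        | linear_combination (γ + 1) * h2
        | linear_combination (1 : F) * h2
        | linear_combination γ * h2
    · ext i j
      fin_cases i <;> fin_cases j <;> simp [Matrix.mul_apply, Fin.sum_univ_four, vecMulVec_apply, ee]
      all_goals first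
        | linear_combination (γ - 2) * h2
        | linear_combination (-2 : F) * h2
        | linear_combination (γ + 1) * h2
        | linear_combination (1 : F) * h2
        | linear_combination γ * h2
    · ext i
      fin_cases i <;> simp [Matrix.mulVec, dotProduct, Fin.sum_univ_four, ee]
    · ext i
      fin_cases i <;> simp [Matrix.vecMul, dotProduct, Fin.sum_univ_four, ee]
  · refine four_gen !![1, 0, 0, 0; 0, -1, 0, -γ; 0, 0, -1, 0; 0, 0, 0, -1] !![1, 0, 0, 0; 0, -1, 0, γ; 0, 0, -1, 0; 0, 0, 0, -1]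
      !![-1, 0, 0, 0; -8, -1, 0, γ; γ, 0, 1, 0; 0, 0, 0, 1] ?_ ?_ 16 ?_ ?_ γ hγ ?_ (-1) (by simp) ?_
    · ext i j
      fin_cases i <;> fin_cases j <;> simp [Matrix.mul_apply, Fin.sum_univ_four]
    · rw [hC]
      ext i j
      fin_cases i <;> fin_cases j <;> simp [Matrix.mul_apply, Fin.sum_univ_four]
      ring
    · push_cast
      have : (16 : F) = 2 ^ 4 := by norm_num
      rw [this]; exact pow_ne_zero _ h2
    · ext i j
      fin_cases i <;> fin_cases j <;> simp [Matrix.mul_apply, Fin.sum_univ_four, vecMulVec_apply, ee]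
      norm_num
    · ext i
      fin_cases i <;> simp [Matrix.mulVec, dotProduct, Fin.sum_univ_four, ee]
    · ext i
      fin_cases i <;> simp [Matrix.vecMul, dotProduct, Fin.sum_univ_four, ee]

/-- Let F be a finite field with q elements and n ≥ 4. Then SL_n(F) is generated by two regular unipotent elements (elements u with u − 1 nilpotent and (u − 1)^(n−1) ≠ 0); if q is prime, the two can be taken conjugate in SL_n(F). -/
theorem result {F : Type*} [Field F] [Fintype F] (n : ℕ) (hn : 4 ≤ n) :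
    (∃ u v : Matrix.SpecialLinearGroup (Fin n) F, (IsNilpotent ((u : Matrix (Fin n) (Fin n) F) - 1) ∧ ((u : Matrix (Fin n) (Fin n) F) - 1) ^ (n - 1) ≠ 0) ∧ (IsNilpotent ((v : Matrix (Fin n) (Fin n) F) - 1) ∧ ((v : Matrix (Fin n) (Fin n) F) - 1) ^ (n - 1) ≠ 0) ∧
      Subgroup.closure ({u, v} : Set (Matrix.SpecialLinearGroup (Fin n) F)) = ⊤) ∧
    ((Fintype.card F).Prime → ∃ u g : Matrix.SpecialLinearGroup (Fin n) F, (IsNilpotent ((u : Matrix (Fin n) (Fin n) F) - 1) ∧ ((u : Matrix (Fin n) (Fin n) F) - 1) ^ (n - 1) ≠ 0) ∧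
      Subgroup.closure ({u, g * u * g⁻¹} : Set (Matrix.SpecialLinearGroup (Fin n) F)) = ⊤) := by
  obtain ⟨γ, hγ0, hγ⟩ := exists_gen_pow F
  have hreg : ∀ (A g : Matrix.SpecialLinearGroup (Fin n) F), A * g = g * Cs n F (by omega) →
      (IsNilpotent ((A : Matrix (Fin n) (Fin n) F) - 1) ∧ ((A : Matrix (Fin n) (Fin n) F) - 1) ^ (n - 1) ≠ 0) := by
    intro A g hAg
    refine reg_of_conj _ (Cmat n F) (g : Matrix (Fin n) (Fin n) F) _ (mul_inv' g) ?_
      (Cmat_sub_one_pow (by omega)) (Cmat_sub_one_pow_ne (by omega))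
    exact congrArg (fun z : Matrix.SpecialLinearGroup (Fin n) F => (z : Matrix (Fin n) (Fin n) F)) hAg
  by_cases h4 : n = 4
  · subst h4
    refine ⟨four_case, fun hp => ?_⟩
    obtain ⟨g, hg⟩ := conj_case (F := F) (n := 4) (by omega) 0 (fun _ => rfl) (fun H h1 _ => by
      obtain ⟨k, hk⟩ := prime_cast hp γ
      refine eq_top_of_gen (by omega) h1 γ hγ 1 0 (by omega) (by omega) (by omega) ?_
      rw [← hk]
      exact (h1 1 0 (by omega) (by omega) (by omega)).int_smul k)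
    exact ⟨_, g, hreg _ 1 (by group), hg⟩
  · obtain ⟨g, hg⟩ := conj_case (F := F) (n := n) hn γ (fun h => absurd h h4) (fun H h1 h2 =>
      eq_top_of_gen (by omega) h1 γ hγ 2 0 (by omega) (by omega) (by omega) (h2 (by omega)))
    exact ⟨⟨_, _, hreg _ 1 (by group), hreg _ g (by group), hg⟩, fun _ => ⟨_, g, hreg _ 1 (by group), hg⟩⟩

end Cfsg.Agent.S2279
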