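import Cfsg.Statements.S2280
import Cfsg.Agent.LibReg2

set_option autoImplicit false
open Cfsg

namespace Cfsg.Agent.S2280

open Matrix CfsgLib.Reg1 CfsgLib.Reg2

variable {F : Type*} [Field F] {n : ℕ}

/-- reversal matrix -/
def Wm (n : ℕ) (F : Type*) [Field F] : Matrix (Fin n) (Fin n) F :=
  Matrix.of fun i j => if i.val + j.val = n - 1 then 1 else 0

theorem Wm_ee {i : ℕ} (hi : i < n) : Wm n F *ᵥ ee n F i = ee n F (n - 1 - i) := by
  ext k
  rw [show ee n F i = ee n F (⟨i, hi⟩ : Fin n).val from rfl, mulVec_ee]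
  simp only [Wm, Matrix.of_apply, ee_apply]
  have := k.2
  by_cases h : k.val = n - 1 - i
  · rw [if_pos (by omega), if_pos h]
  · rw [if_neg (by omega), if_neg h]

theorem ee_Wm {i : ℕ} (hi : i < n) : ee n F i ᵥ* Wm n F = ee n F (n - 1 - i) := by
  ext k
  rw [show ee n F i = ee n F (⟨i, hi⟩ : Fin n).val from rfl, vecMul_ee]
  simp only [Wm, Matrix.of_apply, ee_apply]
  have := k.2
  by_cases h : k.val = n - 1 - i
  · rw [if_pos (by omega), if_pos h]
  · rw [if_neg (by omega), if_neg h]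

theorem Wm_mul : Wm n F * Wm n F = 1 := by
  apply ext_ee
  intro j hj
  rw [← mulVec_mulVec, Wm_ee hj, Wm_ee (by omega), one_mulVec]
  congr 1
  omega

theorem e1_aux (A y : Matrix (Fin n) (Fin n) F) (hn : 3 ≤ n) (γ : F) (hγ0 : γ ≠ 0)
    (hyc : y = 1 + vecMulVec (ee n F 0) (γ⁻¹ • ee n F (n - 2))) (hA0 : A *ᵥ ee n F 0 = ee n F 0)
    (hrow1 : ee n F (n - 1) ᵥ* A = ee n F (n - 1))
    (hrow2 : ee n F (n - 2) ᵥ* A = ee n F (n - 2) + γ • ee n F (n - 1)) :
    (1 + vecMulVec (ee n F 0) (ee n F (n - 1))) * (A * y) = y * A := by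
  have h1 : vecMulVec (ee n F 0) (ee n F (n - 1)) * A = vecMulVec (ee n F 0) (ee n F (n - 1)) := by
    rw [vecMulVec_mul, hrow1]
  have h2 : A * y = A + vecMulVec (ee n F 0) (γ⁻¹ • ee n F (n - 2)) := by
    rw [hyc, mul_add, mul_one, mul_vecMulVec, hA0]
  have h3 : y * A = A + vecMulVec (ee n F 0) (γ⁻¹ • ee n F (n - 2)) + vecMulVec (ee n F 0) (ee n F (n - 1)) := by
    rw [hyc, add_mul, one_mul, vecMulVec_mul, smul_vecMul, hrow2, smul_add, smul_smul, inv_mul_cancel₀ hγ0, one_smul,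
      vecMulVec_add, add_assoc]
  have h4 : vecMulVec (ee n F 0) (ee n F (n - 1)) * vecMulVec (ee n F 0) (γ⁻¹ • ee n F (n - 2)) = 0 := by
    rw [vecMulVec_mul_vecMulVec, ee_dot_ne (by omega : n - 1 ≠ 0), zero_smul, vecMulVec_zero]
  rw [h2, h3, add_mul, one_mul, mul_add, h1, h4, add_zero]

theorem finish [Fintype F] (hn : 3 ≤ n) (H : Subgroup (Matrix.SpecialLinearGroup (Fin n) F))
    (C A y : Matrix.SpecialLinearGroup (Fin n) F) (hS : Shift H C)
    (mA : A ∈ H) (mY : y * A * y⁻¹ ∈ H) (γ : F) (hγ0 : γ ≠ 0) (hγ : ∀ x : F, x ≠ 0 → ∃ k : ℕ, x = γ ^ k)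
    (hyc : (y : Matrix (Fin n) (Fin n) F) = 1 + vecMulVec (ee n F 0) (γ⁻¹ • ee n F (n - 2)))
    (hA0 : (A : Matrix (Fin n) (Fin n) F) *ᵥ ee n F 0 = ee n F 0)
    (hrow1 : ee n F (n - 1) ᵥ* (A : Matrix (Fin n) (Fin n) F) = ee n F (n - 1))
    (hrow2 : ee n F (n - 2) ᵥ* (A : Matrix (Fin n) (Fin n) F) = ee n F (n - 2) + γ • ee n F (n - 1)) : H = ⊤ := by
  have h0 : R H (ee n F 0) (ee n F (n - 1)) := by
    refine ⟨ee_dot_ne (by omega), (y * A * y⁻¹) * A⁻¹, mul_mem mY (inv_mem mA), ?_⟩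
    have e1 := e1_aux (A : Matrix (Fin n) (Fin n) F) (y : Matrix (Fin n) (Fin n) F) hn γ hγ0 hyc hA0 hrow1 hrow2
    have e4 : (y * A * y⁻¹) * A⁻¹ = (y * A) * (A * y)⁻¹ := by group
    rw [e4, coe_mul', coe_mul', ← e1, mul_assoc, ← coe_mul', mul_inv', mul_one]
  have hall := hS.all (by omega) h0
  have hirr : R H (ee n F 0) (γ • ee n F (n - 1)) := by
    have h1 := (hall 0 (n - 2) (by omega) (by omega) (by omega))
    rw [← hA0] at h1
    have h2 := h1.conj' mA
    rw [hrow2] at h2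
    have h3 := h2.sub (hall 0 (n - 2) (by omega) (by omega) (by omega))
    rwa [add_sub_cancel_left] at h3
  exact eq_top_of_gen hn hall γ hγ 0 (n - 1) (by omega) (by omega) (by omega) hirr

set_option maxHeartbeats 800000 in
theorem main (hn : 3 ≤ n) [Fintype F] :
    ∃ u g h : Matrix.SpecialLinearGroup (Fin n) F, (IsNilpotent ((u : Matrix (Fin n) (Fin n) F) - 1) ∧ ((u : Matrix (Fin n) (Fin n) F) - 1) ^ (n - 1) ≠ 0) ∧
      Subgroup.closure ({u, g * u * g⁻¹, h * u * h⁻¹} : Set (Matrix.SpecialLinearGroup (Fin n) F)) = ⊤ := by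
  obtain ⟨γ, hγ0, hγ⟩ := exists_gen_pow F
  obtain ⟨P, hP⟩ := exists_conj_Jm (Cmat n F) (Cmat_sub_one_pow (by omega)) (Cmat_sub_one_pow_ne (by omega))
  set Qi : Matrix (Fin n) (Fin n) F := ((P⁻¹ : GL (Fin n) F) : Matrix (Fin n) (Fin n) F) with hQi
  have hPP : (P : Matrix (Fin n) (Fin n) F) * Qi = 1 := by rw [hQi, ← Units.val_mul]; simp
  have hQP : Qi * (P : Matrix (Fin n) (Fin n) F) = 1 := by rw [hQi, ← Units.val_mul]; simp
  have hPC : Qi * Cmat n F = Jm n F * Qi := by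
    calc Qi * Cmat n F = Qi * (Cmat n F * ((P : Matrix (Fin n) (Fin n) F) * Qi)) := by rw [hPP, mul_one]
      _ = Qi * ((Cmat n F * (P : Matrix (Fin n) (Fin n) F)) * Qi) := by rw [mul_assoc (Cmat n F)]
      _ = (Qi * (P : Matrix (Fin n) (Fin n) F)) * (Jm n F * Qi) := by rw [hP]; simp only [mul_assoc]
      _ = Jm n F * Qi := by rw [hQP, one_mul]
  have hdW : (Wm n F).det ≠ 0 := by
    have := congrArg Matrix.det (Wm_mul (n := n) (F := F))
    rw [det_mul, det_one] at this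
    intro h; rw [h, mul_zero] at this; exact zero_ne_one this
  have hdQi : Qi.det ≠ 0 := by
    have := congrArg Matrix.det hPP
    rw [det_mul, det_one] at this
    intro h; rw [h, mul_zero] at this; exact zero_ne_one this
  set δ : F := (γ⁻¹ * (Wm n F).det * Qi.det)⁻¹ with hδ
  have hδ0 : δ ≠ 0 := by
    rw [hδ]; exact inv_ne_zero (mul_ne_zero (mul_ne_zero (inv_ne_zero hγ0) hdW) hdQi)
  let d : Fin n → F := fun i => if i.val = 0 then δ else if i.val = n - 1 then γ⁻¹ else 1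
  set D : Matrix (Fin n) (Fin n) F := diagonal d with hD
  have hdD : D.det = δ * γ⁻¹ := by
    rw [hD, det_diagonal]
    rw [← Finset.mul_prod_erase Finset.univ d (Finset.mem_univ (⟨0, by omega⟩ : Fin n))]
    rw [← Finset.mul_prod_erase (Finset.univ.erase (⟨0, by omega⟩ : Fin n)) d (a := (⟨n - 1, by omega⟩ : Fin n)) (by
      rw [Finset.mem_erase]; exact ⟨by intro h; have := congrArg Fin.val h; simp at this; omega, Finset.mem_univ _⟩)]
    rw [Finset.prod_eq_one]
    · have e1 : d ⟨0, by omega⟩ = δ := by simp [d]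
      have e2 : d ⟨n - 1, by omega⟩ = γ⁻¹ := by
        change (if n - 1 = 0 then δ else if n - 1 = n - 1 then γ⁻¹ else 1) = γ⁻¹
        rw [if_neg (by omega), if_pos rfl]
      rw [e1, e2, mul_one]
    · intro k hk
      rw [Finset.mem_erase, Finset.mem_erase] at hk
      have h1 : k.val ≠ n - 1 := fun h => hk.1 (Fin.ext h)
      have h2 : k.val ≠ 0 := fun h => hk.2.1 (Fin.ext h)
      simp [d, h1, h2]
  -- the conjugating element
  set g : Matrix.SpecialLinearGroup (Fin n) F := ⟨D * Wm n F * Qi, by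
    rw [det_mul, det_mul, hdD]
    have h3 : γ⁻¹ * (Wm n F).det * Qi.det ≠ 0 := mul_ne_zero (mul_ne_zero (inv_ne_zero hγ0) hdW) hdQi
    calc δ * γ⁻¹ * (Wm n F).det * Qi.det = δ * (γ⁻¹ * (Wm n F).det * Qi.det) := by ring
      _ = 1 := by rw [hδ, inv_mul_cancel₀ h3]⟩ with hg
  have hgc : (g : Matrix (Fin n) (Fin n) F) = D * Wm n F * Qi := rfl
  set C := Cs n F (by omega) with hC
  have hCc : (C : Matrix (Fin n) (Fin n) F) = Cmat n F := rfl
  set A := g * C * g⁻¹ with hA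
  -- the matrix identity A D W = D W J
  have hAg : (A : Matrix (Fin n) (Fin n) F) * (D * Wm n F) = D * Wm n F * Jm n F := by
    have h1 : A * g = g * C := by rw [hA]; group
    have h2 : (A : Matrix (Fin n) (Fin n) F) * (g : Matrix (Fin n) (Fin n) F) = (g : Matrix (Fin n) (Fin n) F) * Cmat n F := by
      rw [← coe_mul', h1, coe_mul', hCc]
    rw [hgc] at h2
    calc (A : Matrix (Fin n) (Fin n) F) * (D * Wm n F) = (A : Matrix (Fin n) (Fin n) F) * (D * Wm n F * Qi) * (P : Matrix (Fin n) (Fin n) F) := by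
          simp only [mul_assoc]; rw [hQP, mul_one]
      _ = D * Wm n F * Qi * Cmat n F * (P : Matrix (Fin n) (Fin n) F) := by rw [h2]
      _ = D * Wm n F * (Qi * Cmat n F) * (P : Matrix (Fin n) (Fin n) F) := by simp only [mul_assoc]
      _ = D * Wm n F * Jm n F := by rw [hPC]; simp only [mul_assoc]; rw [hQP, mul_one]
  -- right inverse of D W
  have hcancel : ∀ x y : Fin n → F, x ᵥ* (D * Wm n F) = y ᵥ* (D * Wm n F) → x = y := by
    intro x y hxy
    have h1 : (D * Wm n F) * (Qi * ((g⁻¹ : Matrix.SpecialLinearGroup (Fin n) F) : Matrix (Fin n) (Fin n) F)) = 1 := by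
      rw [← mul_assoc, ← hgc, mul_inv']
    have h2 := congrArg (fun z => z ᵥ* (Qi * ((g⁻¹ : Matrix.SpecialLinearGroup (Fin n) F) : Matrix (Fin n) (Fin n) F))) hxy
    simp only [vecMul_vecMul, h1, vecMul_one] at h2
    exact h2
  have hJrow0 : ee n F 0 ᵥ* Jm n F = ee n F 0 := by
    ext j
    rw [show ee n F 0 = ee n F (⟨0, by omega⟩ : Fin n).val from rfl, vecMul_ee]
    simp only [Jm, Matrix.of_apply, ee_apply, Fin.ext_iff]
    by_cases h : j.val = 0
    · simp [h]
    · have : ¬ 0 = j.val := fun h' => h h'.symm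
      simp [h, this]
  have hJrow1 : ee n F 1 ᵥ* Jm n F = ee n F 1 + ee n F 0 := by
    ext j
    rw [Pi.add_apply, show ee n F 1 = ee n F (⟨1, by omega⟩ : Fin n).val from rfl, vecMul_ee]
    simp only [Jm, Matrix.of_apply, ee_apply, Fin.ext_iff]
    by_cases h : j.val = 0
    · simp [h]
    · by_cases h1 : j.val = 1
      · simp [h1]
      · have h2 : ¬ 1 = j.val := fun h' => h1 h'.symm
        have h3 : ¬ 1 = j.val + 1 := by omega
        simp [h, h1, h2, h3]
  have hJlast : Jm n F *ᵥ ee n F (n - 1) = ee n F (n - 1) := by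
    ext i
    rw [show ee n F (n - 1) = ee n F (⟨n - 1, by omega⟩ : Fin n).val from rfl, mulVec_ee]
    have := i.2
    simp only [Jm, Matrix.of_apply, ee_apply, Fin.ext_iff]
    by_cases h3 : i.val = n - 1
    · simp [h3]
    · have h4 : i.val ≠ n - 1 + 1 := by omega
      simp [h3, h4]
  have hDrow : ∀ i (hi : i < n), ee n F i ᵥ* D = d ⟨i, hi⟩ • ee n F i := by
    intro i hi
    ext k
    rw [hD, vecMul_diagonal, Pi.smul_apply, smul_eq_mul, ee_apply]
    by_cases h : k.val = i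
    · have : k = ⟨i, hi⟩ := Fin.ext h
      simp [this]
    · simp [h]
  have hDcol : ∀ i (hi : i < n), D *ᵥ ee n F i = d ⟨i, hi⟩ • ee n F i := by
    intro i hi
    ext k
    rw [hD, mulVec_diagonal, Pi.smul_apply, smul_eq_mul, ee_apply]
    by_cases h : k.val = i
    · have : k = ⟨i, hi⟩ := Fin.ext h
      simp [this]
    · simp [h]
  have d0 : d ⟨0, by omega⟩ = δ := by simp [d]
  have d1 : d ⟨n - 1, by omega⟩ = γ⁻¹ := by
    change (if n - 1 = 0 then δ else if n - 1 = n - 1 then γ⁻¹ else 1) = γ⁻¹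
    rw [if_neg (by omega), if_pos rfl]
  have d2 : d ⟨n - 2, by omega⟩ = 1 := by
    change (if n - 2 = 0 then δ else if n - 2 = n - 1 then γ⁻¹ else 1) = 1
    rw [if_neg (by omega), if_neg (by omega)]
  -- action of A
  have hA0 : (A : Matrix (Fin n) (Fin n) F) *ᵥ ee n F 0 = ee n F 0 := by
    have h1 := congrArg (fun M => M *ᵥ ee n F (n - 1)) hAg
    simp only [← mulVec_mulVec] at h1
    rw [hJlast, Wm_ee (by omega), show n - 1 - (n - 1) = 0 by omega, hDcol 0 (by omega), d0, mulVec_smul] at h1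
    exact smul_right_injective _ hδ0 h1
  have hrow1 : ee n F (n - 1) ᵥ* (A : Matrix (Fin n) (Fin n) F) = ee n F (n - 1) := by
    apply hcancel
    rw [vecMul_vecMul, hAg, ← vecMul_vecMul, ← vecMul_vecMul, hDrow (n - 1) (by omega), smul_vecMul, ee_Wm (by omega),
      show n - 1 - (n - 1) = 0 by omega, smul_vecMul, hJrow0]
  have hrow2 : ee n F (n - 2) ᵥ* (A : Matrix (Fin n) (Fin n) F) = ee n F (n - 2) + γ • ee n F (n - 1) := by
    apply hcancel
    rw [vecMul_vecMul, hAg, ← vecMul_vecMul, ← vecMul_vecMul, hDrow (n - 2) (by omega), smul_vecMul, ee_Wm (by omega),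
      show n - 1 - (n - 2) = 1 by omega, d2, one_smul, hJrow1, ← vecMul_vecMul, add_vecMul, add_vecMul,
      hDrow (n - 2) (by omega), smul_vecMul, ee_Wm (by omega),
      show n - 1 - (n - 2) = 1 by omega, d2, one_smul, smul_vecMul, smul_vecMul, hDrow (n - 1) (by omega), d1,
      smul_vecMul, ee_Wm (by omega), show n - 1 - (n - 1) = 0 by omega, smul_smul, mul_inv_cancel₀ hγ0, one_smul]
  -- the transvection
  have hne : (⟨0, by omega⟩ : Fin n) ≠ ⟨n - 2, by omega⟩ := by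
    intro h; have := congrArg Fin.val h; simp at this; omega
  set y := Matrix.SpecialLinearGroup.transvection (F := F) hne γ⁻¹ with hy
  have hyc : (y : Matrix (Fin n) (Fin n) F) = 1 + vecMulVec (ee n F 0) (γ⁻¹ • ee n F (n - 2)) := by
    rw [hy, Matrix.SpecialLinearGroup.transvection_coe]
    congr 1
    ext s t
    rw [vecMulVec_apply, Matrix.single_apply]
    simp only [ee, Pi.smul_apply, smul_eq_mul, Fin.ext_iff]
    by_cases h1 : s.val = 0 <;> by_cases h2 : t.val = n - 2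
    · simp [h1, h2]
    · simp [h1, h2, Ne.symm h2]
    · simp [h1, Ne.symm h1]
    · simp [h2, Ne.symm h2]
  refine ⟨C, g, y * g, reg_of_conj _ (Cmat n F) 1 1 (one_mul 1) (by rw [hCc, mul_one, one_mul])
    (Cmat_sub_one_pow (by omega)) (Cmat_sub_one_pow_ne (by omega)), ?_⟩
  have mC : C ∈ Subgroup.closure ({C, g * C * g⁻¹, y * g * C * (y * g)⁻¹} : Set (Matrix.SpecialLinearGroup (Fin n) F)) :=
    Subgroup.subset_closure (by simp)
  have mA : A ∈ Subgroup.closure ({C, g * C * g⁻¹, y * g * C * (y * g)⁻¹} : Set (Matrix.SpecialLinearGroup (Fin n) F)) :=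
    Subgroup.subset_closure (by simp [hA])
  have mY : y * A * y⁻¹ ∈ Subgroup.closure ({C, g * C * g⁻¹, y * g * C * (y * g)⁻¹} : Set (Matrix.SpecialLinearGroup (Fin n) F)) := by
    have : y * A * y⁻¹ = y * g * C * (y * g)⁻¹ := by rw [hA]; group
    rw [this]; exact Subgroup.subset_closure (by simp)
  exact finish hn _ C A y (shift_Cs (by omega) _ mC) mA mY γ hγ0 hγ hyc hA0 hrow1 hrow2

/-- Let F be a finite field and n ≥ 3. Then SL_n(F) is generated by three conjugate regular unipotent elements: there are u with u − 1 nilpotent and (u − 1)^(n−1) ≠ 0, and g, h, such that u, g u g⁻¹ and h u h⁻¹ generate SL_n(F). -/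
theorem result {F : Type*} [Field F] [Fintype F] (n : ℕ) (hn : 3 ≤ n) :
    ∃ u g h : Matrix.SpecialLinearGroup (Fin n) F, (IsNilpotent ((u : Matrix (Fin n) (Fin n) F) - 1) ∧ ((u : Matrix (Fin n) (Fin n) F) - 1) ^ (n - 1) ≠ 0) ∧
      Subgroup.closure ({u, g * u * g⁻¹, h * u * h⁻¹} : Set (Matrix.SpecialLinearGroup (Fin n) F)) = ⊤ :=
  main hn

end Cfsg.Agent.S2280
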