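import Cfsg.Agent.EqBase
import Cfsg.Agent.LibG2C

set_option autoImplicit false
open Cfsg

namespace Cfsg.Agent.S2302

open CfsgLib.G2B CfsgLib.G2C


/-- Over a finite field with q elements of characteristic 2, the involutions of SL₂ (the non-identity unipotent elements) form a single conjugacy class, of size q² − 1. -/
theorem result {F : Type*} [Field F] [Fintype F] [CharP F 2] (g h : Matrix.SpecialLinearGroup (Fin 2) F) (hg : orderOf g = 2) (hh : orderOf h = 2) :
    IsConj g h ∧ Nat.card (ConjClasses.mk g).carrier = Fintype.card F ^ 2 - 1 := by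
  have hp : Fact (Nat.Prime 2) := ⟨Nat.prime_two⟩
  have key : ∀ a b : Matrix.SpecialLinearGroup (Fin 2) F, orderOf a = 2 → orderOf b = 2 → IsConj a b := by
    intro a b ha hb
    obtain ⟨a1, a2⟩ := sl_order_p 2 ha
    obtain ⟨b1, b2⟩ := sl_order_p 2 hb
    exact sl_conj a1 b1 (by rw [a2, b2]) (fun δ _ => form_char_two _ _)
  refine ⟨key g h hg hh, ?_⟩
  rw [carrier_conj (key g ((frSL F).u 1) hg (orderOf_u (frSL F) 2 one_ne_zero))]
  have h1 := card_carrier ((frSL F).u 1)
  rw [card_centralizer_u_SL one_ne_zero, card_sq_one_even, card_SL, mul_one, mul_comm] at h1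
  have h2 := Nat.eq_of_mul_eq_mul_left Fintype.card_pos h1
  have h3 := Nat.sq_sub_sq (Fintype.card F) 1
  rw [one_pow] at h3
  rw [h2, h3, mul_comm]

end Cfsg.Agent.S2302
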