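import Cfsg.Statements.S2332
import Cfsg.Agent.LibSLw13

set_option autoImplicit false
open Cfsg

namespace Cfsg.Agent.S2332

/-- Smallest degree of a non-linear irreducible complex representation of SL_n over a finite field with q elements, for n ≥ 3 and (n, q) not one of (3, 2), (3, 4), (4, 2), (4, 3): every irreducible complex representation of SL_n(F) of degree at least 2 has degree at least (q^n − q)/(q − 1), and there is an irreducible complex representation of exactly that degree. -/
theorem result {F : Type*} [Field F] [Fintype F] [DecidableEq F] (n : ℕ) (hn : 3 ≤ n)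
    (hex : (n, Fintype.card F) ≠ (3, 2) ∧ (n, Fintype.card F) ≠ (3, 4) ∧ (n, Fintype.card F) ≠ (4, 2) ∧ (n, Fintype.card F) ≠ (4, 3)) :
    (∀ (k : ℕ) (ρ : Representation ℂ (Matrix.SpecialLinearGroup (Fin n) F) (Fin k → ℂ)), ρ.IsIrreducible → 2 ≤ k → (Fintype.card F ^ n - Fintype.card F) / (Fintype.card F - 1) ≤ k) ∧
    (∃ ρ : Representation ℂ (Matrix.SpecialLinearGroup (Fin n) F) (Fin ((Fintype.card F ^ n - Fintype.card F) / (Fintype.card F - 1)) → ℂ), ρ.IsIrreducible) := by
  have hq2 : 2 ≤ Fintype.card F := Fintype.one_lt_card
  have hgood : CfsgLib.SLw.Good (Fin n) F := by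
    obtain ⟨h1, h2, h3, h4⟩ := hex
    unfold CfsgLib.SLw.Good
    rw [Fintype.card_fin, Nat.card_eq_fintype_card]
    simp only [ne_eq, Prod.mk.injEq, not_and] at h1 h2 h3 h4
    rcases Nat.lt_or_ge 4 n with h5 | h5
    · left; omega
    · rcases Nat.lt_or_ge 3 n with h6 | h6
      · right; left
        have h7 : n = 4 := by omega
        have h8 := h3 h7
        have h9 := h4 h7
        omega
      · right; right
        have h7 : n = 3 := by omega
        exact ⟨h7, h1 h7, h2 h7⟩
  constructor
  · intro k ρ hirr hk
    have h1 := CfsgLib.SLw.sl_bound hn hgood ρ hirr (by rwa [Module.finrank_fintype_fun_eq_card, Fintype.card_fin])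
    rw [Module.finrank_fintype_fun_eq_card, Fintype.card_fin] at h1
    apply Nat.div_le_of_le_mul
    omega
  · have hV : Nat.card (Fin n → F) = Fintype.card F ^ n := by
      rw [Nat.card_fun, Nat.card_eq_fintype_card, Nat.card_eq_fintype_card, Fintype.card_fin]
    have hP := Projectivization.card' F (Fin n → F)
    rw [hV, Nat.card_eq_fintype_card (α := F)] at hP
    set M := Nat.card (Projectivization F (Fin n → F)) with hM
    have hpow : Fintype.card F ^ 2 ≤ Fintype.card F ^ n := Nat.pow_le_pow_right (by omega) (by omega)
    have hM2 : 2 ≤ M := by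
      by_contra hcon
      push Not at hcon
      have h1 : M * (Fintype.card F - 1) ≤ 1 * (Fintype.card F - 1) := Nat.mul_le_mul_right _ (by omega)
      have h2 : Fintype.card F < Fintype.card F ^ 2 := by nlinarith
      omega
    have h2t : MulAction.IsMultiplyPretransitive (Matrix.SpecialLinearGroup (Fin n) F) (Projectivization F (Fin n → F)) 2 :=
      inferInstance
    haveI : MulAction.IsPretransitive (Matrix.SpecialLinearGroup (Fin n) F) (Projectivization F (Fin n → F)) :=
      MulAction.isPretransitive_of_is_two_pretransitive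
    haveI : Finite (Projectivization F (Fin n → F)) := by
      apply Nat.finite_of_card_ne_zero
      rw [← hM]; omega
    obtain ⟨m, ρ, hirr, hchar⟩ := (Cfsg.Agent.S0157.result (G := Matrix.SpecialLinearGroup (Fin n) F)
      (Projectivization F (Fin n → F)) hM2).mpr h2t
    have h1 := congrFun hchar 1
    rw [Representation.char_one, Module.finrank_fintype_fun_eq_card, Fintype.card_fin] at h1
    have h3 : Nat.card (MulAction.fixedBy (Projectivization F (Fin n → F)) (1 : Matrix.SpecialLinearGroup (Fin n) F)) = M := by
      rw [MulAction.fixedBy_one_eq_univ, Nat.card_univ]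
    rw [h3] at h1
    have h4 : m + 1 = M := by
      have : (m : ℂ) + 1 = M := by rw [h1]; ring
      exact_mod_cast this
    have h5 : m = (Fintype.card F ^ n - Fintype.card F) / (Fintype.card F - 1) := by
      symm
      apply Nat.div_eq_of_eq_mul_left (by omega)
      rw [hP, ← h4, Nat.add_mul]
      omega
    subst h5
    exact ⟨ρ, hirr⟩

end Cfsg.Agent.S2332
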