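import Cfsg.Statements.S2336
import Cfsg.Agent.LibPermV26

set_option autoImplicit false
open Cfsg

namespace Cfsg.Agent.S2336

open CfsgLib.PermV CfsgLib.CharBasic

/-- Let F be a finite field with q elements and n ≥ 3. The permutation character of SL_n(F) on the non-zero vectors of F^n (the function sending a matrix to the number of non-zero vectors it fixes) is the sum of the principal character and q − 1 pairwise distinct irreducible complex characters. -/
theorem result {F : Type*} [Field F] [Fintype F] [DecidableEq F] (n : ℕ) (hn : 3 ≤ n) :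
    ∃ χ : Fin (Fintype.card F - 1) → (Matrix.SpecialLinearGroup (Fin n) F → ℂ),
      (∀ i, Cfsg.IsIrrCharacter (Matrix.SpecialLinearGroup (Fin n) F) (χ i)) ∧ Function.Injective χ ∧
      ∀ g : Matrix.SpecialLinearGroup (Fin n) F,
        (Nat.card {v : Fin n → F // v ≠ 0 ∧ (g : Matrix (Fin n) (Fin n) F).mulVec v = v} : ℂ) = 1 + ∑ i, χ i g := by
  classical
  have hcard : Fintype.card (AddChar (Additive Fˣ) ℂ) = Fintype.card F - 1 := by
    rw [AddChar.card_eq, Fintype.card_additive, Fintype.card_units]
  let e : Fin (Fintype.card F - 1) ≃ AddChar (Additive Fˣ) ℂ :=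
    (finCongr hcard.symm).trans (Fintype.equivFin _).symm
  refine ⟨fun i => phi n (e i), ?_, ?_, ?_⟩
  · intro i
    rw [irr_iff_norm_one]
    refine ⟨phi_char (by omega) _, ?_⟩
    rw [phi_main hn, if_pos rfl]
  · intro i j hij
    by_contra hne
    have h1 := phi_main hn (e i) (e j)
    rw [if_neg (fun h => hne (e.injective h))] at h1
    have h2 := phi_main hn (e i) (e i)
    rw [if_pos rfl] at h2
    have h3 : phi n (e i) = phi n (e j) := hij
    rw [h3] at h2
    rw [h3] at h1
    rw [h1] at h2
    exact zero_ne_one h2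
  · intro g
    rw [Equiv.sum_comp e (fun l => phi n l g), sum_phi]
    rw [add_sub_cancel]
    congr 1
    apply Nat.card_congr
    refine ⟨fun v => ⟨⟨v.1, v.2.1⟩, ?_⟩, fun v => ⟨v.1.1, v.1.2, ?_⟩, fun _ => rfl, fun _ => rfl⟩
    · rw [MulAction.mem_fixedBy]
      exact Subtype.ext ((coe_smul' g _).trans v.2.2)
    · have := congrArg Subtype.val v.2
      rw [coe_smul'] at this
      exact this

end Cfsg.Agent.S2336
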