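import Cfsg.Statements.S2337
import Mathlib
import Cfsg.Agent.LibSuz12
-- import your own Cfsg.Agent.* helpers here

set_option autoImplicit false
open Cfsg

namespace Cfsg.Agent.S2337

open Cfsg.Agent.Suz
open MulAction
open scoped Pointwise

section
variable {F : Type*} [Field F] [Fintype F] {O : Set (Projectivization F (Fin 4 → F))} {m : ℕ}
variable (D : Data F O m) {V : Type*} [AddCommGroup V] [Module ℂ V] (ρ : Representation ℂ (Gp O) V)

/-- isotypic subspaces -/
def iso (χ : AddChar F ℂ) : Submodule ℂ V where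
  carrier := {v | ∀ b, ρ (D.u 0 b) v = χ b • v}
  add_mem' {v w} hv hw := fun b => by rw [map_add, hv b, hw b, smul_add]
  zero_mem' := fun b => by rw [map_zero, smul_zero]
  smul_mem' c v hv := fun b => by rw [map_smul, hv b, smul_comm]

include D in
theorem chi_sq (χ : AddChar F ℂ) (b : F) : χ b * χ b = 1 := by
  rw [← AddChar.map_add_eq_mul, D.add_self, AddChar.map_zero_eq_one]

include D in
theorem chi_ne (χ : AddChar F ℂ) (b : F) : χ b ≠ 0 := by
  intro h
  have := chi_sq D χ b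
  rw [h, zero_mul] at this
  exact zero_ne_one this

theorem card_ne : (Fintype.card F : ℂ) ≠ 0 := by
  exact_mod_cast Fintype.card_ne_zero

/-- projections -/
noncomputable def PP (χ : AddChar F ℂ) : V →ₗ[ℂ] V := (Fintype.card F : ℂ)⁻¹ • ∑ b, χ b • ρ (D.u 0 b)

theorem PP_apply (χ : AddChar F ℂ) (v : V) :
    PP D ρ χ v = (Fintype.card F : ℂ)⁻¹ • ∑ b, χ b • ρ (D.u 0 b) v := by
  simp [PP, LinearMap.sum_apply]

theorem isProj (χ : AddChar F ℂ) : LinearMap.IsProj (iso D ρ χ) (PP D ρ χ) := by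
  refine ⟨?_, ?_⟩
  · intro v c
    rw [PP_apply, map_smul, map_sum, smul_comm]
    congr 1
    rw [Finset.smul_sum]
    refine (Equiv.sum_comp (Equiv.addLeft c) _).symm.trans ?_
    apply Finset.sum_congr rfl
    intro b _
    simp only [Equiv.coe_addLeft, map_smul]
    rw [← Module.End.mul_apply, ← map_mul, D.u_mul, smul_smul, ← AddChar.map_add_eq_mul]
    have e : D.u (0 + 0) (c + (c + b) + D.S 0 * 0) = D.u 0 b := by
      congr 1
      · ring
      · rw [mul_zero, add_zero, ← add_assoc, D.add_self, zero_add]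
    rw [e]
  · intro v hv
    have hv' : ∀ b, ρ (D.u 0 b) v = χ b • v := hv
    rw [PP_apply]
    simp only [hv', smul_smul, chi_sq D, one_smul]
    rw [Finset.sum_const, Finset.card_univ, ← Nat.cast_smul_eq_nsmul ℂ, smul_smul, inv_mul_cancel₀ (card_ne), one_smul]

theorem sum_PP [Fintype (AddChar F ℂ)] : ∑ χ : AddChar F ℂ, PP D ρ χ = 1 := by
  classical
  ext v
  rw [LinearMap.sum_apply]
  simp only [PP_apply]
  rw [← Finset.smul_sum, Finset.sum_comm]
  have h1 : ∀ b : F, ∑ χ : AddChar F ℂ, χ b • ρ (D.u 0 b) v = if b = 0 then (Fintype.card F : ℂ) • v else 0 := by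
    intro b
    rw [← Finset.sum_smul]
    have h2 := AddChar.sum_apply_eq_ite (α := F) b
    have h3 : ∑ χ : AddChar F ℂ, χ b = if b = 0 then (Fintype.card F : ℂ) else 0 := by
      rw [← h2]
      apply Finset.sum_congr _ (fun _ _ => rfl)
      ext x
      simp
    rw [h3]
    by_cases hb : b = 0
    · rw [if_pos hb, if_pos hb, hb, D.u_zero, map_one]
      rfl
    · rw [if_neg hb, if_neg hb, zero_smul]
  simp only [h1]
  rw [Finset.sum_ite_eq' Finset.univ (0 : F), if_pos (Finset.mem_univ _), smul_smul, inv_mul_cancel₀ card_ne, one_smul]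
  rfl

theorem sum_finrank [Fintype (AddChar F ℂ)] [FiniteDimensional ℂ V] :
    ∑ χ : AddChar F ℂ, Module.finrank ℂ (iso D ρ χ) = Module.finrank ℂ V := by
  have h1 := congrArg (LinearMap.trace ℂ V) (sum_PP D ρ)
  rw [map_sum, LinearMap.trace_one] at h1
  have h2 : ∀ χ : AddChar F ℂ, LinearMap.trace ℂ V (PP D ρ χ) = (Module.finrank ℂ (iso D ρ χ) : ℂ) :=
    fun χ => (isProj D ρ χ).trace
  simp only [h2] at h1
  exact_mod_cast h1

theorem shift_surj {χ : AddChar F ℂ} (hχ : χ ≠ 1) (ψ : AddChar F ℂ) : ∃ κ : F, ψ = AddChar.mulShift χ κ := by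
  have h1 := AddChar.to_mulShift_inj_of_isPrimitive (AddChar.IsPrimitive.of_ne_one hχ)
  have h2 : Fintype.card F = Fintype.card (AddChar F ℂ) := AddChar.card_eq.symm
  have h3 := (Fintype.bijective_iff_injective_and_card (χ.mulShift)).mpr ⟨h1, h2⟩
  obtain ⟨κ, hκ⟩ := h3.2 ψ
  exact ⟨κ, hκ.symm⟩

/-- operators -/
theorem T_mem (χ : AddChar F ℂ) (a : F) (v : V) (hv : v ∈ iso D ρ χ) : ρ (D.u a 0) v ∈ iso D ρ χ := by
  intro b
  have hv' : ∀ b, ρ (D.u 0 b) v = χ b • v := hv
  rw [← Module.End.mul_apply, ← map_mul]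
  have e : D.u 0 b * D.u a 0 = D.u a 0 * D.u 0 b := by
    rw [D.u_mul, D.u_mul]
    congr 1
    · ring
    · rw [map_zero]; ring
  rw [e, map_mul, Module.End.mul_apply, hv', map_smul]

/-- restricted operators -/
noncomputable def T (χ : AddChar F ℂ) (a : F) : Module.End ℂ (iso D ρ χ) :=
  (ρ (D.u a 0)).restrict (T_mem D ρ χ a)

theorem T_mul (χ : AddChar F ℂ) (a c : F) : T D ρ χ a * T D ρ χ c = χ (D.S a * c) • T D ρ χ (a + c) := by
  ext v
  change ρ (D.u a 0) (ρ (D.u c 0) v) = χ (D.S a * c) • ρ (D.u (a + c) 0) v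
  have hv' : ∀ b, ρ (D.u 0 b) (v : V) = χ b • (v : V) := v.2
  rw [← map_smul, ← hv', ← Module.End.mul_apply, ← Module.End.mul_apply, ← map_mul, ← map_mul, D.u_mul, D.u_mul]
  congr 3
  · ring
  · ring

theorem T_zero (χ : AddChar F ℂ) : T D ρ χ 0 = 1 := by
  ext v
  change ρ (D.u 0 0) v = (v : V)
  rw [D.u_zero, map_one]
  rfl

theorem T_trace (χ : AddChar F ℂ) {a c : F} (h : χ (D.S a * c) ≠ χ (D.S c * a)) :
    LinearMap.trace ℂ _ (T D ρ χ a) = 0 := by
  have h1 : T D ρ χ a * T D ρ χ c * T D ρ χ c = χ (D.S a * c) • (T D ρ χ (a + c) * T D ρ χ c) := by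
    rw [T_mul, smul_mul_assoc]
  have h2 : T D ρ χ c * (T D ρ χ a * T D ρ χ c) = χ (D.S c * a) • (T D ρ χ (a + c) * T D ρ χ c) := by
    rw [← mul_assoc, T_mul, smul_mul_assoc, add_comm c a]
  have h3 : LinearMap.trace ℂ _ (T D ρ χ a * T D ρ χ c * T D ρ χ c) = LinearMap.trace ℂ _ (T D ρ χ c * (T D ρ χ a * T D ρ χ c)) :=
    LinearMap.trace_mul_comm ℂ _ _
  rw [h1, h2, map_smul, map_smul, smul_eq_mul, smul_eq_mul] at h3
  have h4 : LinearMap.trace ℂ _ (T D ρ χ (a + c) * T D ρ χ c) = 0 := by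
    have : (χ (D.S a * c) - χ (D.S c * a)) * LinearMap.trace ℂ _ (T D ρ χ (a + c) * T D ρ χ c) = 0 := by
      rw [sub_mul, h3, sub_self]
    rcases mul_eq_zero.mp this with h5 | h5
    · exact absurd (sub_eq_zero.mp h5) h
    · exact h5
  have h5 : T D ρ χ a * T D ρ χ c * T D ρ χ c = χ (D.S c * c) • T D ρ χ a := by
    rw [mul_assoc, T_mul, D.add_self, T_zero, mul_smul_comm, mul_one]
  have h6 := congrArg (LinearMap.trace ℂ _) h1
  rw [h5, map_smul, map_smul, h4, smul_zero, smul_eq_mul] at h6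
  rcases mul_eq_zero.mp h6 with h7 | h7
  · exact absurd h7 (chi_ne D χ _)
  · exact h7

/-- the radical -/
def Rad (χ : AddChar F ℂ) : AddSubgroup F where
  carrier := {a | ∀ c, χ (D.S a * c) = χ (D.S c * a)}
  add_mem' {a b} ha hb := fun c => by
    rw [map_add, add_mul, mul_add, AddChar.map_add_eq_mul, AddChar.map_add_eq_mul, ha c, hb c]
  zero_mem' := fun c => by rw [map_zero, zero_mul, mul_zero]
  neg_mem' {a} ha := fun c => by
    have e : -a = a := by linear_combination (-a) * D.h2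
    rw [e]
    exact ha c

theorem card_Rad {χ : AddChar F ℂ} (hχ : χ ≠ 1) : Nat.card (Rad D χ) ≤ 2 := by
  obtain ⟨ν, hν⟩ := shift_surj hχ (χ.compAddMonoidHom (D.S : F →+* F).toAddMonoidHom)
  have hν' : ∀ x, χ (D.S x) = χ (ν * x) := fun x => by
    have := DFunLike.congr_fun hν x
    rw [AddChar.mulShift_apply] at this
    exact this
  have hsub : (Rad D χ : Set F) ⊆ {0, D.S ν} := by
    intro a ha
    obtain ⟨s, rfl⟩ := D.S_surj a
    have h1 : AddChar.mulShift χ (s ^ 2) = AddChar.mulShift χ (ν * s) := by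
      ext c
      rw [AddChar.mulShift_apply, AddChar.mulShift_apply]
      have h2 := ha c
      rw [D.hS, ← map_mul, hν'] at h2
      rw [h2]
      congr 1
      ring
    have h2 := AddChar.to_mulShift_inj_of_isPrimitive (AddChar.IsPrimitive.of_ne_one hχ) h1
    have h3 : s * (s - ν) = 0 := by linear_combination h2
    rcases mul_eq_zero.mp h3 with h4 | h4
    · left
      rw [h4, map_zero]
    · right
      rw [sub_eq_zero.mp h4]
      rfl
  have h1 : (Rad D χ : Set F).ncard ≤ 2 := (Set.ncard_le_ncard hsub (Set.toFinite _)).trans ((Set.ncard_insert_le _ _).trans (by rw [Set.ncard_singleton]))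
  rwa [← Nat.card_coe_set_eq] at h1

theorem dim_iso [FiniteDimensional ℂ V] {χ : AddChar F ℂ} (hχ : χ ≠ 1) (hne : iso D ρ χ ≠ ⊥) :
    2 ^ m ≤ Module.finrank ℂ (iso D ρ χ) := by
  classical
  have hfr : 0 < Module.finrank ℂ (iso D ρ χ) := by
    rw [Module.finrank_pos_iff]
    exact Submodule.nontrivial_iff_ne_bot.mpr hne
  have hfinq : Fintype (F ⧸ Rad D χ) := Fintype.ofFinite _
  have hlin : LinearIndependent ℂ (fun i : F ⧸ Rad D χ => T D ρ χ (Quotient.out i)) := by
    rw [Fintype.linearIndependent_iff]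
    intro g hg j
    have h1 := congrArg (fun X => LinearMap.trace ℂ _ (X * T D ρ χ (Quotient.out j))) hg
    simp only [Finset.sum_mul, map_sum, zero_mul, map_zero, smul_mul_assoc, T_mul, map_smul, smul_eq_mul] at h1
    rw [Finset.sum_eq_single j] at h1
    · rw [D.add_self, T_zero, LinearMap.trace_one] at h1
      rcases mul_eq_zero.mp h1 with h2 | h2
      · exact h2
      · exfalso
        rcases mul_eq_zero.mp h2 with h3 | h3
        · exact chi_ne D χ _ h3
        · have : (Module.finrank ℂ (iso D ρ χ) : ℂ) = 0 := h3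
          have h4 : Module.finrank ℂ (iso D ρ χ) = 0 := by exact_mod_cast this
          omega
    · intro i _ hij
      have h2 : (Quotient.out i : F) + Quotient.out j ∉ Rad D χ := by
        intro h3
        apply hij
        have h4 : -(Quotient.out i : F) + Quotient.out j ∈ Rad D χ := by
          have e : -(Quotient.out i : F) = Quotient.out i := by linear_combination (-(Quotient.out i : F)) * D.h2
          rw [e]; exact h3
        have h5 := QuotientAddGroup.eq.mpr h4
        rw [QuotientAddGroup.out_eq', QuotientAddGroup.out_eq'] at h5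
        exact h5
      have h3 : ∃ c, χ (D.S ((Quotient.out i : F) + Quotient.out j) * c) ≠ χ (D.S c * ((Quotient.out i : F) + Quotient.out j)) := by
        by_contra hcon
        push Not at hcon
        exact h2 hcon
      obtain ⟨c, hc⟩ := h3
      rw [T_trace D ρ χ hc, mul_zero, mul_zero]
    · intro h
      exact absurd (Finset.mem_univ j) h
  have h1 := hlin.fintype_card_le_finrank
  have h2 : Module.finrank ℂ (Module.End ℂ (iso D ρ χ)) = Module.finrank ℂ (iso D ρ χ) * Module.finrank ℂ (iso D ρ χ) :=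
    Module.finrank_linearMap ℂ ℂ _ _
  rw [h2] at h1
  have h3 := AddSubgroup.card_eq_card_quotient_mul_card_addSubgroup (Rad D χ)
  rw [Nat.card_eq_fintype_card, D.hF, Nat.card_eq_fintype_card (α := F ⧸ Rad D χ)] at h3
  have h4 := card_Rad D hχ
  have h5 : 2 ^ (2 * m + 1) ≤ Fintype.card (F ⧸ Rad D χ) * 2 := by
    rw [h3]; exact Nat.mul_le_mul_left _ h4
  have h6 : 2 ^ m * 2 ^ m ≤ Fintype.card (F ⧸ Rad D χ) := by
    rw [← pow_add]
    rw [pow_succ] at h5
    have h7 : 2 ^ (2 * m) ≤ Fintype.card (F ⧸ Rad D χ) := Nat.le_of_mul_le_mul_right h5 (by norm_num)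
    rwa [two_mul] at h7
  exact Nat.mul_self_le_mul_self_iff.mp (h6.trans h1)

theorem iso_ne {χ₀ χ : AddChar F ℂ} (hχ₀ : χ₀ ≠ 1) (hχ : χ ≠ 1) (hne : iso D ρ χ₀ ≠ ⊥) : iso D ρ χ ≠ ⊥ := by
  obtain ⟨κ, hκ⟩ := shift_surj hχ₀ χ
  have hκ0 : κ ≠ 0 := by
    rintro rfl
    apply hχ
    rw [hκ, AddChar.mulShift_zero]
  obtain ⟨v, hv, hv0⟩ := Submodule.exists_mem_ne_zero_of_ne_bot hne
  have hv' : ∀ b, ρ (D.u 0 b) v = χ₀ b • v := hv
  obtain ⟨t, ht⟩ := D.lam2_surj (inv_ne_zero hκ0)
  intro hbot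
  have h1 : ρ (D.h t) v ∈ iso D ρ χ := by
    intro b
    have h2 : D.u 0 b * D.h t = D.h t * D.u 0 (κ * b) := by
      have h3 := D.hu t 0 (κ * b)
      rw [mul_zero, ht] at h3
      rw [h3]
      congr 2
      field_simp
    rw [← Module.End.mul_apply, ← map_mul, h2, map_mul, Module.End.mul_apply, hv', map_smul, hκ, AddChar.mulShift_apply]
  rw [hbot, Submodule.mem_bot] at h1
  apply hv0
  have h2 : ρ (D.h t)⁻¹ (ρ (D.h t) v) = v := by
    rw [← Module.End.mul_apply, ← map_mul, inv_mul_cancel, map_one]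
    rfl
  rw [← h2, h1, map_zero]

theorem main [FiniteDimensional ℂ V] (hne : ρ (D.u 0 1) ≠ 1) :
    2 ^ m * (2 ^ (2 * m + 1) - 1) ≤ Module.finrank ℂ V := by
  classical
  -- some nontrivial isotypic component
  have hex : ∃ χ₀ : AddChar F ℂ, χ₀ ≠ 1 ∧ iso D ρ χ₀ ≠ ⊥ := by
    by_contra hcon
    push Not at hcon
    apply hne
    have h1 := sum_PP D ρ
    rw [Finset.sum_eq_single (1 : AddChar F ℂ)] at h1
    · ext v
      have h2 : PP D ρ 1 v = v := by rw [h1]; rfl
      have h3 : v ∈ iso D ρ 1 := by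
        rw [← h2]
        exact (isProj D ρ 1).map_mem v
      have h4 := h3 1
      rw [AddChar.one_apply, one_smul] at h4
      exact h4
    · intro χ _ hχ
      ext v
      have h2 := (isProj D ρ χ).map_mem v
      rw [hcon χ hχ, Submodule.mem_bot] at h2
      exact h2
    · intro h
      exact absurd (Finset.mem_univ _) h
  obtain ⟨χ₀, hχ₀, hne₀⟩ := hex
  have h1 := sum_finrank D ρ
  rw [← h1]
  have h2 : ∑ χ ∈ (Finset.univ.erase (1 : AddChar F ℂ)), 2 ^ m ≤ ∑ χ : AddChar F ℂ, Module.finrank ℂ (iso D ρ χ) := by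
    refine le_trans (Finset.sum_le_sum (fun χ hχ => ?_)) (Finset.sum_le_sum_of_subset (Finset.erase_subset _ _))
    have hχ1 := Finset.ne_of_mem_erase hχ
    exact dim_iso D ρ hχ1 (iso_ne D ρ hχ₀ hχ1 hne₀)
  rw [Finset.sum_const, Finset.card_erase_of_mem (Finset.mem_univ _), Finset.card_univ, AddChar.card_eq, D.hF,
    smul_eq_mul, mul_comm] at h2
  exact h2
end

/-- For the Suzuki group Sz(q), q = 2^(2m+1) with m ≥ 1 (realised inside Sp₄ over the field with q elements), every irreducible complex representation of degree at least 2 has degree at least 2^m·(q − 1). -/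
theorem result {F : Type*} [Field F] [Fintype F] (m : ℕ) (hm : 1 ≤ m) (hF : Fintype.card F = 2 ^ (2 * m + 1)) :
    (∀ (k : ℕ) (ρ : Representation ℂ (Cfsg.Lie.Sz F (2 ^ (m + 1))) (Fin k → ℂ)), ρ.IsIrreducible → 2 ≤ k → 2 ^ m * (2 ^ (2 * m + 1) - 1) ≤ k) := by
  intro k ρ hirr hk
  have D := Cfsg.Agent.Suz.data hm hF
  let e := lieIso hm hF
  let ρ' : Representation ℂ (Cfsg.Sz F m) (Fin k → ℂ) := ρ.comp e.symm.toMonoidHom
  have hker : ρ' (D.u 0 1) ≠ 1 := by
    intro h
    have hs := D.simple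
    have h1 : ρ'.ker = ⊤ := by
      rcases hs.eq_bot_or_eq_top_of_normal ρ'.ker inferInstance with h2 | h2
      · exfalso
        have h3 : D.u 0 1 ∈ ρ'.ker := h
        rw [h2, Subgroup.mem_bot] at h3
        exact one_ne_zero (D.u_eq_one h3).2
      · exact h2
    have htriv : ∀ g v, ρ g v = v := by
      intro g v
      have h2 : e g ∈ ρ'.ker := by rw [h1]; exact Subgroup.mem_top _
      have h3 : ρ (e.symm (e g)) = 1 := h2
      rw [e.symm_apply_apply] at h3
      rw [h3]; rfl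
    let i0 : Fin k := ⟨0, by omega⟩
    let i1 : Fin k := ⟨1, by omega⟩
    let W : Subrepresentation ρ := ⟨Submodule.span ℂ {Pi.single i0 1}, fun g v hv => by rw [htriv]; exact hv⟩
    have hi01 : i0 ≠ i1 := by
      intro h
      have := congrArg Fin.val h
      simp [i0, i1] at this
    rcases hirr.eq_bot_or_eq_top W with h2 | h2
    · have h3 : (Pi.single i0 1 : Fin k → ℂ) ∈ W.toSubmodule := Submodule.mem_span_singleton_self _
      rw [h2] at h3
      have h4 : (Pi.single i0 1 : Fin k → ℂ) = 0 := h3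
      have h5 := congrFun h4 i0
      simp at h5
    · have h3 : (Pi.single i1 1 : Fin k → ℂ) ∈ W.toSubmodule := by
        rw [h2]; exact Submodule.mem_top
      obtain ⟨c, hc⟩ := Submodule.mem_span_singleton.mp h3
      have h5 := congrFun hc i1
      simp [hi01.symm, Pi.single_apply] at h5
  have := main D ρ' hker
  simpa using this

end Cfsg.Agent.S2337
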