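import Cfsg.Statements.S2344
import Cfsg.Agent.LibOw16

set_option autoImplicit false
open Cfsg

namespace Cfsg.Agent.S2344

/-- For a finite field F of odd order q > 3 and n ≥ 3, every irreducible complex representation of degree at least 2 of Ω_{2n+1}(F) (the commutator subgroup of the isometry group of the quadratic form x₀² + x₁y₁ + ⋯ + x_ny_n) has degree at least (q^{2n} − 1)/(q² − 1). -/
theorem result {F : Type*} [Field F] [Fintype F] (n : ℕ) (hn : 3 ≤ n) (hodd : Odd (Fintype.card F)) (h3 : 3 < Fintype.card F) :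
    (∀ (k : ℕ) (ρ : Representation ℂ (Cfsg.Omega F (Cfsg.quadFormOdd n F)) (Fin k → ℂ)), ρ.IsIrreducible → 2 ≤ k → (Fintype.card F ^ (2 * n) - 1) / (Fintype.card F ^ 2 - 1) ≤ k) := by
  classical
  intro k ρ hirr hk
  have hFr : Nat.card F = Fintype.card F := Nat.card_eq_fintype_card
  have h2 : (2 : F) ≠ 0 := by
    intro h
    haveI : CharP F 2 := CharTwo.of_one_ne_zero_of_two_eq_zero one_ne_zero h
    have := FiniteField.even_card_of_char_two (F := F) (ringChar.eq F 2)
    rw [Nat.odd_iff] at hodd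
    omega
  have B := CfsgLib.Ow.big_qOdd hn h2 (CfsgLib.Ow.exists_sq_ne (by rwa [hFr]))
  obtain ⟨x, x', z, z', t, t', u, hop, htx, htz, hs, -⟩ := B.fr
  have hcom := hs.commutator_eq B.hQ B.hF'
  have e : Cfsg.Omega F (Cfsg.quadFormOdd n F) ≃* Cfsg.Agent.H22.EG (Cfsg.Agent.H22.qOdd n F) := by
    rw [← Cfsg.Agent.H22.coe_qOdd]
    exact (Cfsg.Agent.H22.omegaIso _).trans (MulEquiv.subgroupCongr hcom)
  have hirr' := (CfsgLib.CharBasic.irreducible_comp_surj ρ e.symm.toMonoidHom e.symm.surjective).mpr hirr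
  have hq1 : 1 ≤ Fintype.card F ^ 2 := Nat.one_le_pow _ _ (by omega)
  have hq2 : 1 < Fintype.card F ^ 2 := by nlinarith
  have hdvd : Fintype.card F ^ 2 - 1 ∣ Fintype.card F ^ (2 * n) - 1 := by
    have := Nat.sub_dvd_pow_sub_pow (Fintype.card F ^ 2) 1 n
    rwa [one_pow, ← pow_mul] at this
  have := CfsgLib.Ow.bound_odd B hirr' (by rwa [Module.finrank_fintype_fun_eq_card, Fintype.card_fin]) hn (by rw [hFr]; omega)
    (by
      rw [Nat.card_fun]
      congr 1
      simp [Nat.card_eq_fintype_card]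
      ring)
    (by rw [CfsgLib.Ow.nn_eq_cnt, Cfsg.Agent.H22.cnt_odd, hFr])
    (T := (Fintype.card F ^ (2 * n) - 1) / (Fintype.card F ^ 2 - 1)) (by rw [hFr, Nat.mul_div_cancel' hdvd])
  rwa [Module.finrank_fintype_fun_eq_card, Fintype.card_fin] at this

end Cfsg.Agent.S2344
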