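import Cfsg.Statements.S2345
import Cfsg.Agent.LibOw16

set_option autoImplicit false
open Cfsg

namespace Cfsg.Agent.S2345

/-- For a finite field F with q > 3 elements and n ≥ 4, every irreducible complex representation of degree at least 2 of Ω⁺_{2n}(F) (the commutator subgroup of the isometry group of the hyperbolic quadratic form x₁y₁ + ⋯ + x_ny_n) has degree at least (q^n − 1)(q^{n−1} + q)/(q² − 1). -/
theorem result {F : Type*} [Field F] [Fintype F] (n : ℕ) (hn : 4 ≤ n) (h3 : 3 < Fintype.card F) :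
    (∀ (k : ℕ) (ρ : Representation ℂ (Cfsg.Omega F (Cfsg.quadFormPlus n F)) (Fin k → ℂ)), ρ.IsIrreducible → 2 ≤ k → (Fintype.card F ^ n - 1) * (Fintype.card F ^ (n - 1) + Fintype.card F) / (Fintype.card F ^ 2 - 1) ≤ k) := by
  classical
  intro k ρ hirr hk
  have hFr : Nat.card F = Fintype.card F := Nat.card_eq_fintype_card
  have B := CfsgLib.Ow.big_qPlus hn (CfsgLib.Ow.exists_sq_ne (F := F) (by rwa [hFr]))
  obtain ⟨x, x', z, z', t, t', u, hop, htx, htz, hs, -⟩ := B.fr
  have hcom := hs.commutator_eq B.hQ B.hF'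
  have e : Cfsg.Omega F (Cfsg.quadFormPlus n F) ≃* Cfsg.Agent.H22.EG (Cfsg.Agent.H22.qPlus n F) := by
    rw [← Cfsg.Agent.H22.coe_qPlus]
    exact (Cfsg.Agent.H22.omegaIso _).trans (MulEquiv.subgroupCongr hcom)
  have hirr' := (CfsgLib.CharBasic.irreducible_comp_surj ρ e.symm.toMonoidHom e.symm.surjective).mpr hirr
  have hcnt : Cfsg.Agent.H22.cnt (Cfsg.Agent.H22.qPlus n F) 0 = Cfsg.Agent.H22.zP (Fintype.card F) n := Cfsg.Agent.H22.cnt_plus n
  set q := Fintype.card F with hq
  have hq1 : 1 ≤ q ^ 2 := Nat.one_le_pow _ _ (by omega)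
  have hdvd : q ^ 2 - 1 ∣ (q ^ n - 1) * (q ^ (n - 1) + q) := by
    clear_value q
    obtain ⟨p, rfl⟩ : ∃ p, q = p + 1 := ⟨q - 1, by omega⟩
    have hfac : (p + 1) ^ 2 - 1 = p * (p + 2) := by
      have : (p + 1) ^ 2 = p * (p + 2) + 1 := by ring
      omega
    rw [hfac]
    rcases Nat.even_or_odd' n with ⟨j, hj | hj⟩
    · apply Dvd.dvd.mul_right
      have := Nat.sub_dvd_pow_sub_pow ((p + 1) ^ 2) 1 j
      rw [one_pow, ← pow_mul, hfac] at this
      rwa [hj]
    · apply mul_dvd_mul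
      · have := Nat.sub_dvd_pow_sub_pow (p + 1) 1 n
        rwa [one_pow, Nat.add_sub_cancel] at this
      · have h1 : n - 1 = 2 * j := by omega
        rw [h1]
        have := Nat.sub_dvd_pow_sub_pow ((p + 1) ^ 2) 1 j
        rw [one_pow, ← pow_mul, hfac] at this
        have h2 : p + 2 ∣ (p + 1) ^ (2 * j) - 1 := dvd_trans (dvd_mul_left _ _) this
        have h3 : 1 ≤ (p + 1) ^ (2 * j) := Nat.one_le_pow _ _ (by omega)
        have h4 : (p + 1) ^ (2 * j) + (p + 1) = ((p + 1) ^ (2 * j) - 1) + (p + 2) := by omega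
        rw [h4]
        exact dvd_add h2 dvd_rfl
  have := CfsgLib.Ow.bound_plus B hirr' (by rwa [Module.finrank_fintype_fun_eq_card, Fintype.card_fin]) hn (by rw [hFr]; omega)
    (by
      rw [Nat.card_fun]
      congr 1
      simp [Nat.card_eq_fintype_card]
      ring)
    (by
      rw [CfsgLib.Ow.nn_eq_cnt, hcnt, hFr]
      obtain ⟨m, rfl⟩ : ∃ m, n = m + 1 := ⟨n - 1, by omega⟩
      have h1 := Cfsg.Agent.H22.zP_sub q (by omega) m
      rw [Nat.add_sub_cancel, ← h1]
      have h2 : 0 < (q ^ (m + 1) - 1) * (q ^ m + 1) := by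
        apply Nat.mul_pos
        · have : q ^ 1 ≤ q ^ (m + 1) := Nat.pow_le_pow_right (by omega) (by omega)
          rw [pow_one] at this
          omega
        · omega
      omega)
    (T := (q ^ n - 1) * (q ^ (n - 1) + q) / (q ^ 2 - 1)) (by rw [hFr, Nat.mul_div_cancel' hdvd])
  rwa [Module.finrank_fintype_fun_eq_card, Fintype.card_fin] at this

end Cfsg.Agent.S2345
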