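import Cfsg.Statements.S2346
import Cfsg.Agent.LibOy21

set_option autoImplicit false
open Cfsg

namespace Cfsg.Agent.S2346

theorem dvd_aux (q n : ℕ) (hq : 2 ≤ q) (hn : 4 ≤ n) : q ^ 2 - 1 ∣ (q ^ n + 1) * (q ^ (n - 1) - q) := by
  obtain ⟨p, rfl⟩ : ∃ p, q = p + 1 := ⟨q - 1, by omega⟩
  obtain ⟨k, rfl⟩ : ∃ k, n = k + 2 := ⟨n - 2, by omega⟩
  have hfac : (p + 1) ^ 2 - 1 = p * (p + 2) := by
    have : (p + 1) ^ 2 = p * (p + 2) + 1 := by ring
    omega
  have h0 : (p + 1) ^ (k + 2 - 1) - (p + 1) = (p + 1) * ((p + 1) ^ k - 1) := by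
    have h1 : k + 2 - 1 = k + 1 := by omega
    rw [h1, Nat.mul_sub, mul_one, pow_succ, mul_comm]
  rw [h0, hfac]
  rcases Nat.even_or_odd' k with ⟨j, hj | hj⟩
  · apply Dvd.dvd.mul_left
    apply Dvd.dvd.mul_left
    have := Nat.sub_dvd_pow_sub_pow ((p + 1) ^ 2) 1 j
    rw [one_pow, ← pow_mul, hfac] at this
    rwa [hj]
  · rw [mul_comm p]
    apply mul_dvd_mul
    · have hodd : Odd (k + 2) := ⟨j + 1, by omega⟩
      have := hodd.nat_add_dvd_pow_add_pow (p + 1) 1
      rwa [one_pow] at this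
    · apply Dvd.dvd.mul_left
      have := Nat.sub_dvd_pow_sub_pow (p + 1) 1 k
      rwa [one_pow, Nat.add_sub_cancel] at this

/-- For a finite field F with q elements, n ≥ 4, and a, b ∈ F with z₁² + a z₁z₂ + b z₂² anisotropic, every irreducible complex representation of degree at least 2 of Ω⁻_{2n}(F) (the commutator subgroup of the isometry group of x₁y₁ + ⋯ + x_{n−1}y_{n−1} + z₁² + a z₁z₂ + b z₂²) has degree at least (q^n + 1)(q^{n−1} − q)/(q² − 1). -/
theorem result {F : Type*} [Field F] [Fintype F] (n : ℕ) (hn : 4 ≤ n) (a b : F) (hab : ∀ z₁ z₂ : F, z₁ ^ 2 + a * z₁ * z₂ + b * z₂ ^ 2 = 0 → z₁ = 0 ∧ z₂ = 0) :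
    (∀ (k : ℕ) (ρ : Representation ℂ (Cfsg.Omega F (Cfsg.quadFormMinus (n - 1) F a b)) (Fin k → ℂ)), ρ.IsIrreducible → 2 ≤ k → (Fintype.card F ^ n + 1) * (Fintype.card F ^ (n - 1) - Fintype.card F) / (Fintype.card F ^ 2 - 1) ≤ k) := by
  classical
  intro k ρ hirr hk
  have hFr : Nat.card F = Fintype.card F := Nat.card_eq_fintype_card
  have h1c : 1 < Fintype.card F := Fintype.one_lt_card
  have hdvd := dvd_aux (Fintype.card F) n h1c hn
  have hm3 : 3 ≤ n - 1 := by omega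
  have hcnt : Cfsg.Agent.H22.cnt (Cfsg.Agent.H22.qMinus (n - 1) F a b) 0 = Cfsg.Agent.H22.zM (Fintype.card F) (n - 1) :=
    Cfsg.Agent.H22.cnt_minus (n - 1) a b hab
  have hV : Nat.card ((Fin (n - 1) ⊕ Fin (n - 1)) ⊕ Fin 2 → F) = Nat.card F ^ (2 * n) := by
    rw [Nat.card_fun]
    congr 1
    simp [Nat.card_eq_fintype_card]
    omega
  have hz : Cfsg.Agent.H22.zM (Fintype.card F) (n - 1) = (Fintype.card F ^ n + 1) * (Fintype.card F ^ (n - 1) - 1) + 1 := by
    obtain ⟨m, rfl⟩ : ∃ m, n = m + 2 := ⟨n - 2, by omega⟩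
    have h1 := Cfsg.Agent.H22.zM_sub (Fintype.card F) (by omega) m
    have h3 : m + 2 - 1 = m + 1 := by omega
    rw [h3, ← h1]
    have h2 : 0 < (Fintype.card F ^ (m + 2) + 1) * (Fintype.card F ^ (m + 1) - 1) := by
      apply Nat.mul_pos (by omega)
      have : Fintype.card F ^ 1 ≤ Fintype.card F ^ (m + 1) := Nat.pow_le_pow_right (by omega) (by omega)
      rw [pow_one] at this
      omega
    omega
  by_cases hF : 3 < Fintype.card F
  · have B := CfsgLib.Oy.big_qMinus_Ow hm3 a b hab (CfsgLib.Ow.exists_sq_ne (F := F) (by rwa [hFr]))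
    obtain ⟨x, x', z, z', t, t', u, hop, htx, htz, hs, -⟩ := B.fr
    have hcom := hs.commutator_eq B.hQ B.hF'
    have e : Cfsg.Omega F (Cfsg.quadFormMinus (n - 1) F a b) ≃* Cfsg.Agent.H22.EG (Cfsg.Agent.H22.qMinus (n - 1) F a b) := by
      rw [← Cfsg.Agent.H22.coe_qMinus]
      exact (Cfsg.Agent.H22.omegaIso _).trans (MulEquiv.subgroupCongr hcom)
    have hirr' := (CfsgLib.CharBasic.irreducible_comp_surj ρ e.symm.toMonoidHom e.symm.surjective).mpr hirr
    have := CfsgLib.Oy.bound_minus_big B hirr' (by rwa [Module.finrank_fintype_fun_eq_card, Fintype.card_fin]) hn hV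
      (by rw [CfsgLib.Ow.nn_eq_cnt, hcnt, hFr, hz])
      (T := (Fintype.card F ^ n + 1) * (Fintype.card F ^ (n - 1) - Fintype.card F) / (Fintype.card F ^ 2 - 1))
      (by rw [hFr, Nat.mul_div_cancel' hdvd])
    rwa [Module.finrank_fintype_fun_eq_card, Fintype.card_fin] at this
  · have hF23' : Fintype.card F = 2 ∨ Fintype.card F = 3 := by omega
    have hF23 : Nat.card F = 2 ∨ Nat.card F = 3 := by rwa [hFr]
    have B := CfsgLib.Oy.big_qMinus hm3 a b hab
    have S := CfsgLib.Oy.std_qMinus hm3 a b hab hF23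
    obtain ⟨x, x', z, z', t, t', u, hop, htx, htz, hs, -⟩ := B.fr
    have hcom := hs.commutator_eq B.hQ B.hF'
    have e : Cfsg.Omega F (Cfsg.quadFormMinus (n - 1) F a b) ≃* Cfsg.Agent.H22.EG (Cfsg.Agent.H22.qMinus (n - 1) F a b) := by
      rw [← Cfsg.Agent.H22.coe_qMinus]
      exact (Cfsg.Agent.H22.omegaIso _).trans (MulEquiv.subgroupCongr hcom)
    have hirr' := (CfsgLib.CharBasic.irreducible_comp_surj ρ e.symm.toMonoidHom e.symm.surjective).mpr hirr
    have := CfsgLib.Oy.bound_minus_small B S hirr' (by rwa [Module.finrank_fintype_fun_eq_card, Fintype.card_fin]) hn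
      (fun h5 => CfsgLib.Oy.std4_qMinus (by omega) a b hab hF23) hV
      (by rw [CfsgLib.Oy.nn_eq_cnt, hcnt, hFr, hz])
      (by
        intro c hc
        rw [CfsgLib.Oy.nn_eq_cnt, CfsgLib.Oy.cnt_minus_c hF23' (n - 1) a b hab c hc, hFr]
        congr 2
        omega)
      (T := (Fintype.card F ^ n + 1) * (Fintype.card F ^ (n - 1) - Fintype.card F) / (Fintype.card F ^ 2 - 1))
      (by rw [hFr, Nat.mul_div_cancel' hdvd])
    rwa [Module.finrank_fintype_fun_eq_card, Fintype.card_fin] at this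

end Cfsg.Agent.S2346
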