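import Cfsg.Statements.S2347
import Cfsg.Agent.LibWeil4

set_option autoImplicit false
open Cfsg

namespace Cfsg.Agent.S2347

/-- Smallest degree of a non-linear irreducible complex representation of the symplectic group Sp_{2n} over a finite field of odd order q, n ≥ 2: every irreducible complex representation of degree at least 2 has degree at least (q^n − 1)/2, and there is an irreducible complex representation of exactly that degree (a Weil representation). -/
theorem result {F : Type*} [Field F] [Fintype F] [DecidableEq F] (n : ℕ) (hn : 2 ≤ n) (hodd : Odd (Fintype.card F)) :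
    (∀ (k : ℕ) (ρ : Representation ℂ (Matrix.symplecticGroup (Fin n) F) (Fin k → ℂ)), ρ.IsIrreducible → 2 ≤ k → (Fintype.card F ^ n - 1) / 2 ≤ k) ∧
    (∃ ρ : Representation ℂ (Matrix.symplecticGroup (Fin n) F) (Fin ((Fintype.card F ^ n - 1) / 2) → ℂ), ρ.IsIrreducible) := by
  have hc : (2 : F) ≠ 0 := by
    intro h3
    have h5 : ringChar F = 2 := CharP.ringChar_of_prime_eq_zero Nat.prime_two (by exact_mod_cast h3)
    have h6 := FiniteField.even_card_of_char_two h5
    rcases hodd with ⟨k, hk⟩
    omega
  constructor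
  · intro k ρ hirr hk
    have h1 := CfsgLib.WtSp.sp_odd hn hodd ρ hirr (by rwa [Module.finrank_fintype_fun_eq_card, Fintype.card_fin])
    rw [Module.finrank_fintype_fun_eq_card, Fintype.card_fin] at h1
    omega
  · obtain ⟨ψ, hψ⟩ := CfsgLib.WtSp.exists_psi F
    have hfr := CfsgLib.Weil.finrank_Sm (l := Fin n) (F := F) hc
    rw [Fintype.card_fin] at hfr
    have e : CfsgLib.Weil.Sm (Fin n) F ≃ₗ[ℂ] (Fin ((Fintype.card F ^ n - 1) / 2) → ℂ) := by
      refine LinearEquiv.ofFinrankEq _ _ ?_
      rw [Module.finrank_fintype_fun_eq_card, Fintype.card_fin]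
      omega
    exact ⟨_, CfsgLib.CharBasic.irreducible_of_equiv (CfsgLib.CharBasic.transportEquiv (CfsgLib.Weil.W (l := Fin n) hc hψ) e)
      (CfsgLib.Weil.W_irreducible hn hc hψ)⟩

end Cfsg.Agent.S2347
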