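import Cfsg.Statements.S2353
import Cfsg.Agent.LibLawSL2

set_option autoImplicit false
open Pointwise
open Cfsg

namespace Cfsg.Agent.S2353

/-- A non-trivial law holds in PSL_2 over only finitely many finite fields: for every non-trivial element w of the free group on countably many generators there is N such that over every finite field with at least N elements some substitution of elements of PSL_2 into w is not the identity. -/
theorem result (w : FreeGroup ℕ) (hw : w ≠ 1) :
    ∃ N : ℕ, ∀ (F : Type*) [Field F] [Fintype F], N ≤ Fintype.card F →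
      ∃ f : ℕ → Matrix.ProjectiveSpecialLinearGroup (Fin 2) F, FreeGroup.lift f w ≠ 1 := by
  obtain ⟨N, hN⟩ := CfsgLib.LawSL2.exists_bound_not_mem_center w hw
  refine ⟨N, fun F _ _ hF => ?_⟩
  obtain ⟨f, hf⟩ := hN F hF
  refine ⟨fun i => QuotientGroup.mk' _ (f i), fun h => hf ?_⟩
  have h2 : FreeGroup.lift (fun i => QuotientGroup.mk' (Subgroup.center (Matrix.SpecialLinearGroup (Fin 2) F)) (f i)) w
      = QuotientGroup.mk' (Subgroup.center (Matrix.SpecialLinearGroup (Fin 2) F)) (FreeGroup.lift f w) := by
    have : (QuotientGroup.mk' (Subgroup.center (Matrix.SpecialLinearGroup (Fin 2) F))).comp (FreeGroup.lift f) =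
        FreeGroup.lift (fun i => QuotientGroup.mk' (Subgroup.center (Matrix.SpecialLinearGroup (Fin 2) F)) (f i)) := by
      ext i : 1
      simp
    rw [← this]
    rfl
  rw [← QuotientGroup.ker_mk' (Subgroup.center (Matrix.SpecialLinearGroup (Fin 2) F)), MonoidHom.mem_ker, ← h2]
  exact h

end Cfsg.Agent.S2353
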