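import Cfsg.Statements.S2354
import Cfsg.Agent.LibPP

set_option autoImplicit false
open Pointwise
open Cfsg

namespace Cfsg.Agent.S2354

open Matrix Polynomial

/-- The central root elements. -/
def Zm {R : Type*} [CommRing R] (b B : R) : Matrix (Fin 4) (Fin 4) R :=
  !![1, 0, 0, 0; 0, 1, 0, 0; b, 0, 1, 0; B, b, 0, 1]

def Wm (R : Type*) [CommRing R] : Matrix (Fin 4) (Fin 4) R :=
  !![0, 0, 0, 1; 0, 0, 1, 0; 0, 1, 0, 0; 1, 0, 0, 0]

theorem Zm_mul {R : Type*} [CommRing R] (b B b' B' : R) : Zm b B * Zm b' B' = Zm (b + b') (B + B') := by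
  ext i j
  fin_cases i <;> fin_cases j <;> simp [Zm, Matrix.mul_apply, Fin.sum_univ_four]

theorem Zm_zero {R : Type*} [CommRing R] : Zm (0 : R) 0 = 1 := by
  ext i j
  fin_cases i <;> fin_cases j <;> simp [Zm]

theorem Wm_mul {R : Type*} [CommRing R] : Wm R * Wm R = 1 := by
  ext i j
  fin_cases i <;> fin_cases j <;> simp [Wm, Matrix.mul_apply, Fin.sum_univ_four]

/-- The unit attached to `Zm`. -/
def Z {R : Type*} [CommRing R] (b B : R) : GL (Fin 4) R :=
  ⟨Zm b B, Zm (-b) (-B), by rw [Zm_mul]; simp [Zm_zero], by rw [Zm_mul]; simp [Zm_zero]⟩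

def W (R : Type*) [CommRing R] : GL (Fin 4) R := ⟨Wm R, Wm R, Wm_mul, Wm_mul⟩

theorem Z_inv {R : Type*} [CommRing R] (b B : R) : (Z b B)⁻¹ = Z (-b) (-B) := by
  apply Units.ext; rfl

theorem W_inv {R : Type*} [CommRing R] : (W R)⁻¹ = W R := by
  apply Units.ext; rfl

theorem Z_mul {R : Type*} [CommRing R] (b B b' B' : R) : Z b B * Z b' B' = Z (b + b') (B + B') := by
  apply Units.ext
  exact Zm_mul _ _ _ _

/-- generators -/
noncomputable def gen (R : Type*) [CommRing R] (e : ℕ) (i : ℕ) : GL (Fin 4) R[X] :=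
  Z (X ^ (i + 1)) (X ^ ((i + 1) * e)) * W R[X] * Z (X ^ (i + 1)) (X ^ ((i + 1) * e)) * W R[X]

theorem abstract_pp {G α : Type*} [Group G] [MulAction G α] (Zi : ℕ → G) (W : G) (hWW : W * W = 1)
    (E D : Set α) (hx3 : ∀ x ∈ D, x ∉ E) (v v3 : α) (hv : v ∈ E) (hv3 : v3 ∈ D) (hWv : W • v = v3)
    (hZv3 : ∀ i, Zi i • v3 = v3) (_hW1 : ∀ x ∈ E, W • x ∈ D) (hW2 : ∀ x ∈ D, W • x ∈ E)
    (hZi : ∀ i, ∀ x ∈ E, Zi i • x ∈ D) (hZi' : ∀ i, ∀ x ∈ E, (Zi i)⁻¹ • x ∈ D)
    (hZij : ∀ i j, i ≠ j → ∀ x ∈ E, (Zi i * (Zi j)⁻¹) • x ∈ D)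
    (hcomm : ∀ i j, Zi i * (Zi j)⁻¹ = (Zi j)⁻¹ * Zi i) (w : FreeGroup ℕ) (hw : w ≠ 1) :
    FreeGroup.lift (fun i => Zi i * W * Zi i * W) w ≠ 1 := by
  have hWinv : W⁻¹ = W := inv_eq_of_mul_eq_one_right hWW
  have hginv : ∀ i, (Zi i * W * Zi i * W)⁻¹ = W * (Zi i)⁻¹ * W * (Zi i)⁻¹ := by
    intro i
    simp only [_root_.mul_inv_rev, hWinv, mul_assoc]
  have hWv3 : W • v3 = v := by rw [← hWv, ← mul_smul, hWW, one_smul]
  refine CfsgLib.PP.ne_one _ (fun i => {x | (Zi i)⁻¹ • x ∈ E}) (fun i => {x | (Zi i * W) • x ∈ E})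
    v ?_ ?_ ?_ ?_ ?_ ?_ ?_ ?_ w hw
  · intro i h
    exact hx3 _ (hZi' i v hv) h
  · intro i h
    have h' : (Zi i * W) • v ∈ E := h
    rw [mul_smul, hWv, hZv3] at h'
    exact hx3 _ hv3 h'
  · intro i
    change (Zi i)⁻¹ • (Zi i * W * Zi i * W) • v ∈ E
    rw [← mul_smul]
    rw [show (Zi i)⁻¹ * (Zi i * W * Zi i * W) = W * (Zi i * W) by group, mul_smul, mul_smul,
      hWv, hZv3, hWv3]
    exact hv
  · intro i
    change (Zi i * W) • (Zi i * W * Zi i * W)⁻¹ • v ∈ E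
    rw [hginv, ← mul_smul]
    rw [show Zi i * W * (W * (Zi i)⁻¹ * W * (Zi i)⁻¹) =
      Zi i * (W * W) * (Zi i)⁻¹ * W * (Zi i)⁻¹ by group, hWW, mul_one, mul_inv_cancel, one_mul, mul_smul]
    exact hW2 _ (hZi' i v hv)
  · intro i j x hx
    have hx' : (Zi j)⁻¹ • x ∈ E := hx
    have hxD : x ∈ D := by
      have := hZi j _ hx'
      rwa [← mul_smul, mul_inv_cancel, one_smul] at this
    change (Zi i)⁻¹ • (Zi i * W * Zi i * W) • x ∈ E
    rw [← mul_smul]
    rw [show (Zi i)⁻¹ * (Zi i * W * Zi i * W) = W * (Zi i * W) by group, mul_smul, mul_smul]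
    exact hW2 _ (hZi i _ (hW2 _ hxD))
  · intro i j hij x hx
    have hx' : (Zi j * W) • x ∈ E := hx
    change (Zi i)⁻¹ • (Zi i * W * Zi i * W) • x ∈ E
    rw [← mul_smul]
    rw [show (Zi i)⁻¹ * (Zi i * W * Zi i * W) = W * ((Zi i * (Zi j)⁻¹) * (Zi j * W)) by group,
      mul_smul, mul_smul (Zi i * (Zi j)⁻¹)]
    exact hW2 _ (hZij i j hij _ hx')
  · intro i j x hx
    have hx' : (Zi j * W) • x ∈ E := hx
    have hxE : x ∈ E := by
      have h1 := hZi' j _ hx'
      rw [← mul_smul, ← mul_assoc, inv_mul_cancel, one_mul] at h1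
      have h2 := hW2 _ h1
      rwa [← mul_smul, hWW, one_smul] at h2
    change (Zi i * W) • (Zi i * W * Zi i * W)⁻¹ • x ∈ E
    rw [hginv, ← mul_smul]
    rw [show Zi i * W * (W * (Zi i)⁻¹ * W * (Zi i)⁻¹) =
      Zi i * (W * W) * (Zi i)⁻¹ * W * (Zi i)⁻¹ by group, hWW, mul_one, mul_inv_cancel, one_mul, mul_smul]
    exact hW2 _ (hZi' i x hxE)
  · intro i j hij x hx
    have hx' : (Zi j)⁻¹ • x ∈ E := hx
    change (Zi i * W) • (Zi i * W * Zi i * W)⁻¹ • x ∈ E
    rw [hginv, ← mul_smul]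
    rw [show Zi i * W * (W * (Zi i)⁻¹ * W * (Zi i)⁻¹) =
      Zi i * (W * W) * (Zi i)⁻¹ * W * (Zi i)⁻¹ by group, hWW, mul_one, mul_inv_cancel, one_mul]
    rw [show W * (Zi i)⁻¹ = W * (((Zi i)⁻¹ * Zi j) * (Zi j)⁻¹) by group, ← hcomm, mul_smul, mul_smul (Zi j * (Zi i)⁻¹)]
    exact hW2 _ (hZij j i hij.symm _ hx')

section pp
variable {F : Type*} [Field F]

/-- vectors with dominating first coordinate -/
def E0 (F : Type*) [Field F] : Set (Fin 4 → F[X]) :=
  {x | (x 1).degree < (x 0).degree ∧ (x 2).degree < (x 0).degree ∧ (x 3).degree < (x 0).degree}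

def D3 (F : Type*) [Field F] : Set (Fin 4 → F[X]) :=
  {x | (x 0).degree < (x 3).degree ∧ (x 1).degree < (x 3).degree ∧ (x 2).degree < (x 3).degree}

/-- The action on vectors. -/
@[reducible]
noncomputable def act (F : Type*) [Field F] : MulAction (GL (Fin 4) F[X]) (Fin 4 → F[X]) where
  smul g v := (g : Matrix (Fin 4) (Fin 4) F[X]).mulVec v
  one_smul v := by
    change ((1 : GL (Fin 4) F[X]) : Matrix (Fin 4) (Fin 4) F[X]).mulVec v = v
    rw [Units.val_one, Matrix.one_mulVec]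
  mul_smul g h v := by
    change ((g * h : GL (Fin 4) F[X]) : Matrix (Fin 4) (Fin 4) F[X]).mulVec v =
      (g : Matrix (Fin 4) (Fin 4) F[X]).mulVec ((h : Matrix (Fin 4) (Fin 4) F[X]).mulVec v)
    rw [Units.val_mul, Matrix.mulVec_mulVec]

theorem W_E0 (x : Fin 4 → F[X]) (hx : x ∈ E0 F) : (Wm F[X]).mulVec x ∈ D3 F := by
  obtain ⟨h1, h2, h3⟩ := hx
  simp only [D3, Set.mem_ofPred_eq, Wm, Matrix.mulVec, dotProduct, Fin.sum_univ_four]
  simp [h1, h2, h3]

theorem W_D3 (x : Fin 4 → F[X]) (hx : x ∈ D3 F) : (Wm F[X]).mulVec x ∈ E0 F := by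
  obtain ⟨h1, h2, h3⟩ := hx
  simp only [E0, Set.mem_ofPred_eq, Wm, Matrix.mulVec, dotProduct, Fin.sum_univ_four]
  simp [h1, h2, h3]

theorem Z_E0 (b B : F[X]) (hB : 0 < B.degree) (hb : b.degree < B.degree) (x : Fin 4 → F[X]) (hx : x ∈ E0 F) :
    (Zm b B).mulVec x ∈ D3 F := by
  obtain ⟨h1, h2, h3⟩ := hx
  have hx0 : x 0 ≠ 0 := by intro h; rw [h] at h1; simp at h1
  have hB0 : B ≠ 0 := by rintro rfl; simp at hB
  have e1 : (x 0).degree < (B * x 0).degree := by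
    rw [degree_mul, degree_eq_natDegree hB0, degree_eq_natDegree hx0]
    rw [degree_eq_natDegree hB0] at hB
    norm_cast at hB ⊢
    omega
  have e2 : (b * x 0).degree < (B * x 0).degree := by
    rw [degree_mul, degree_mul]
    exact WithBot.add_lt_add_right (by rw [Ne, degree_eq_bot]; exact hx0) hb
  have e3 : (b * x 1).degree < (B * x 0).degree := by
    rcases eq_or_ne b 0 with rfl | hb0
    · rw [zero_mul, degree_zero, bot_lt_iff_ne_bot, Ne, degree_eq_bot]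
      exact mul_ne_zero hB0 hx0
    · refine lt_trans ?_ e2
      rw [degree_mul, degree_mul]
      exact WithBot.add_lt_add_left (by rw [Ne, degree_eq_bot]; exact hb0) h1
  have e4 : (B * x 0 + b * x 1 + x 3).degree = (B * x 0).degree := by
    rw [add_assoc, degree_add_eq_left_of_degree_lt]
    exact lt_of_le_of_lt (degree_add_le _ _) (max_lt e3 (h3.trans e1))
  have r0 : (Zm b B).mulVec x 0 = x 0 := by simp [Zm, Matrix.mulVec, dotProduct, Fin.sum_univ_four]
  have r1 : (Zm b B).mulVec x 1 = x 1 := by simp [Zm, Matrix.mulVec, dotProduct, Fin.sum_univ_four]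
  have r2 : (Zm b B).mulVec x 2 = b * x 0 + x 2 := by simp [Zm, Matrix.mulVec, dotProduct, Fin.sum_univ_four]
  have r3 : (Zm b B).mulVec x 3 = B * x 0 + b * x 1 + x 3 := by simp [Zm, Matrix.mulVec, dotProduct, Fin.sum_univ_four]
  simp only [D3, Set.mem_ofPred_eq, r0, r1, r2, r3, e4]
  exact ⟨e1, h1.trans e1, lt_of_le_of_lt (degree_add_le _ _) (max_lt e2 (h2.trans e1))⟩

theorem disj (x : Fin 4 → F[X]) (h : x ∈ E0 F) : x ∉ D3 F := by
  intro h'
  exact absurd h.2.2 (not_lt.mpr h'.1.le)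

/-- degree condition for a pair -/
def Good (b B : F[X]) : Prop := 0 < B.degree ∧ b.degree < B.degree

theorem good_gen (e : ℕ) (he : 2 ≤ e) (i : ℕ) : Good ((X : F[X]) ^ (i + 1)) (X ^ ((i + 1) * e)) := by
  constructor
  · rw [degree_X_pow]; exact_mod_cast Nat.mul_pos (Nat.succ_pos _) (by omega)
  · rw [degree_X_pow, degree_X_pow]; exact_mod_cast (show i + 1 < (i + 1) * e by nlinarith)

theorem good_neg {b B : F[X]} (h : Good b B) : Good (-b) (-B) := by
  unfold Good at *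
  rwa [degree_neg, degree_neg]

theorem good_diff_aux (e : ℕ) (he : 2 ≤ e) (i j : ℕ) (hij : i < j) :
    Good ((X : F[X]) ^ (j + 1) - X ^ (i + 1)) (X ^ ((j + 1) * e) - X ^ ((i + 1) * e)) := by
  have h1 : ((X : F[X]) ^ (j + 1) - X ^ (i + 1)).degree = ((X : F[X]) ^ (j + 1)).degree := by
    apply degree_sub_eq_left_of_degree_lt
    rw [degree_X_pow, degree_X_pow]; exact_mod_cast (show i + 1 < j + 1 by omega)
  have h2 : ((X : F[X]) ^ ((j + 1) * e) - X ^ ((i + 1) * e)).degree = ((X : F[X]) ^ ((j + 1) * e)).degree := by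
    apply degree_sub_eq_left_of_degree_lt
    rw [degree_X_pow, degree_X_pow]; exact_mod_cast (show (i + 1) * e < (j + 1) * e by nlinarith)
  unfold Good
  rw [h1, h2]
  exact good_gen e he j

theorem good_diff (e : ℕ) (he : 2 ≤ e) (i j : ℕ) (hij : i ≠ j) :
    Good ((X : F[X]) ^ (j + 1) - X ^ (i + 1)) (X ^ ((j + 1) * e) - X ^ ((i + 1) * e)) := by
  rcases lt_or_gt_of_ne hij with h | h
  · exact good_diff_aux e he i j h
  · have := good_neg (good_diff_aux (F := F) e he j i h)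
    rwa [neg_sub, neg_sub] at this

theorem lift_ne_one (e : ℕ) (he : 2 ≤ e) (w : FreeGroup ℕ) (hw : w ≠ 1) :
    FreeGroup.lift (gen F e) w ≠ 1 := by
  let _ : MulAction (GL (Fin 4) F[X]) (Fin 4 → F[X]) := act F
  have hsm : ∀ (g : GL (Fin 4) F[X]) (x : Fin 4 → F[X]), g • x = (g : Matrix (Fin 4) (Fin 4) F[X]).mulVec x :=
    fun _ _ => rfl
  refine abstract_pp (fun i => Z (X ^ (i + 1)) (X ^ ((i + 1) * e))) (W F[X]) (by apply Units.ext; exact Wm_mul)
    (E0 F) (D3 F) (fun x hx hx' => disj x hx' hx) ![1, 0, 0, 0] ![0, 0, 0, 1] (by simp [E0])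
    (by simp [D3]) ?_ ?_ ?_ ?_ ?_ ?_ ?_ ?_ w hw
  · rw [hsm]
    change (Wm F[X]).mulVec _ = _
    ext i
    fin_cases i <;> simp [Wm, Matrix.mulVec, dotProduct, Fin.sum_univ_four]
  · intro i
    rw [hsm]
    change (Zm _ _).mulVec _ = _
    ext i
    fin_cases i <;> simp [Zm, Matrix.mulVec, dotProduct, Fin.sum_univ_four]
  · intro x hx; rw [hsm]; exact W_E0 x hx
  · intro x hx; rw [hsm]; exact W_D3 x hx
  · intro i x hx; rw [hsm]; exact Z_E0 _ _ (good_gen e he i).1 (good_gen e he i).2 x hx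
  · intro i x hx
    rw [Z_inv, hsm]
    exact Z_E0 _ _ (good_neg (good_gen e he i)).1 (good_neg (good_gen e he i)).2 x hx
  · intro i j hij x hx
    rw [Z_inv, Z_mul, ← sub_eq_add_neg, ← sub_eq_add_neg, hsm]
    exact Z_E0 _ _ (good_diff e he j i hij.symm).1 (good_diff e he j i hij.symm).2 x hx
  · intro i j
    rw [Z_inv, Z_mul, Z_mul, add_comm, add_comm (X ^ ((i + 1) * e))]

end pp

/-! ### degree bound -/

theorem natDegree_mul_entry {F : Type*} [Field F] {A B : Matrix (Fin 4) (Fin 4) F[X]} {a b : ℕ}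
    (hA : ∀ i j, (A i j).natDegree ≤ a) (hB : ∀ i j, (B i j).natDegree ≤ b) (i j : Fin 4) :
    ((A * B) i j).natDegree ≤ a + b := by
  rw [Matrix.mul_apply]
  apply Polynomial.natDegree_sum_le_of_forall_le
  intro k _
  exact le_trans Polynomial.natDegree_mul_le (add_le_add (hA i k) (hB k j))

theorem natDegree_Zm {F : Type*} [Field F] {b B : F[X]} {a : ℕ} (hb : b.natDegree ≤ a) (hB : B.natDegree ≤ a)
    (i j : Fin 4) : ((Zm b B) i j).natDegree ≤ a := by
  fin_cases i <;> fin_cases j <;> simp [Zm, hb, hB]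

theorem natDegree_Wm {F : Type*} [Field F] (i j : Fin 4) : ((Wm F[X]) i j).natDegree ≤ 0 := by
  fin_cases i <;> fin_cases j <;> simp [Wm]

theorem natDegree_gen {F : Type*} [Field F] (e : ℕ) (he : 1 ≤ e) (k : ℕ) (i j : Fin 4) :
    ((gen F e k : Matrix (Fin 4) (Fin 4) F[X]) i j).natDegree ≤ 2 * (k + 1) * e := by
  have hZ : ∀ i j : Fin 4, ((Zm ((X : F[X]) ^ (k + 1)) (X ^ ((k + 1) * e))) i j).natDegree ≤ (k + 1) * e :=
    natDegree_Zm (by rw [natDegree_X_pow]; nlinarith) (by rw [natDegree_X_pow])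
  have := natDegree_mul_entry (natDegree_mul_entry (natDegree_mul_entry hZ (natDegree_Wm (F := F))) hZ) (natDegree_Wm (F := F)) i j
  refine le_trans this (by nlinarith)

theorem natDegree_gen_inv {F : Type*} [Field F] (e : ℕ) (he : 1 ≤ e) (k : ℕ) (i j : Fin 4) :
    (((gen F e k)⁻¹ : GL (Fin 4) F[X]) i j).natDegree ≤ 2 * (k + 1) * e := by
  have hginv : (gen F e k)⁻¹ = W F[X] * Z (-X ^ (k + 1)) (-X ^ ((k + 1) * e)) * W F[X] * Z (-X ^ (k + 1)) (-X ^ ((k + 1) * e)) := by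
    rw [gen]
    simp only [_root_.mul_inv_rev, W_inv, mul_assoc, Z_inv]
  rw [hginv]
  have hZ : ∀ i j : Fin 4, ((Zm (-(X : F[X]) ^ (k + 1)) (-X ^ ((k + 1) * e))) i j).natDegree ≤ (k + 1) * e :=
    natDegree_Zm (by rw [natDegree_neg, natDegree_X_pow]; nlinarith) (by rw [natDegree_neg, natDegree_X_pow])
  have := natDegree_mul_entry (natDegree_mul_entry (natDegree_mul_entry (natDegree_Wm (F := F)) hZ) (natDegree_Wm (F := F))) hZ i j
  refine le_trans this (by nlinarith)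

universe u

theorem exists_bound (w : FreeGroup ℕ) : ∃ C : ℕ, ∀ (F : Type u) [Field F] (e : ℕ), 1 ≤ e → ∀ i j : Fin 4,
    ((FreeGroup.lift (gen F e) w : GL (Fin 4) F[X]) i j).natDegree ≤ C * e := by
  induction w using FreeGroup.induction_on with
  | C1 =>
    refine ⟨0, fun F _ e _ i j => ?_⟩
    rw [map_one]
    fin_cases i <;> fin_cases j <;> simp
  | of k =>
    refine ⟨2 * (k + 1), fun F _ e he i j => ?_⟩
    rw [FreeGroup.lift_apply_of]
    exact natDegree_gen e he k i j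
  | inv_of k _ =>
    refine ⟨2 * (k + 1), fun F _ e he i j => ?_⟩
    rw [map_inv, FreeGroup.lift_apply_of]
    exact natDegree_gen_inv e he k i j
  | mul x y hx hy =>
    obtain ⟨C1, h1⟩ := hx
    obtain ⟨C2, h2⟩ := hy
    refine ⟨C1 + C2, fun F _ e he i j => ?_⟩
    rw [map_mul, Units.val_mul]
    refine le_trans (natDegree_mul_entry (h1 F e he) (h2 F e he) i j) (by nlinarith)

/-! ### specialisation -/

theorem Wm_mem {F : Type*} [Field F] [CharP F 2] (e : ℕ) (he : e ≠ 0) : W F ∈ Cfsg.Lie.Sz F e := by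
  apply Subgroup.subset_closure
  constructor
  · intro u v
    change Cfsg.Lie.altForm4 ((Wm F).mulVec u) ((Wm F).mulVec v) = Cfsg.Lie.altForm4 u v
    simp [Cfsg.Lie.altForm4, Wm, Matrix.mulVec, dotProduct, Fin.sum_univ_four]
    ring
  · change Cfsg.Lie.star4 (Wm F) = (Wm F).map (fun x => x ^ e)
    have h2 : (-1 : F) = 1 := by
      rw [CharTwo.neg_eq]
    ext i j
    fin_cases i <;> fin_cases j <;> simp [Cfsg.Lie.star4, Cfsg.Lie.pairOf, Wm, he, h2]

theorem Zm_mem {F : Type*} [Field F] [CharP F 2] (e : ℕ) (he : e ≠ 0) (hee : ∀ x : F, (x ^ e) ^ e = x ^ 2) (b : F) :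
    Z b (b ^ e) ∈ Cfsg.Lie.Sz F e := by
  apply Subgroup.subset_closure
  constructor
  · intro u v
    change Cfsg.Lie.altForm4 ((Zm b (b ^ e)).mulVec u) ((Zm b (b ^ e)).mulVec v) = Cfsg.Lie.altForm4 u v
    simp [Cfsg.Lie.altForm4, Zm, Matrix.mulVec, dotProduct, Fin.sum_univ_four]
    have h2 : (2 : F) = 0 := CharTwo.two_eq_zero
    linear_combination (u 0 * v 0 * b ^ e + u 0 * b * v 1 + u 1 * b * v 0) * h2
  · change Cfsg.Lie.star4 (Zm b (b ^ e)) = (Zm b (b ^ e)).map (fun x => x ^ e)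
    have h2 : ∀ x : F, -x = x := fun x => CharTwo.neg_eq x
    ext i j
    fin_cases i <;> fin_cases j <;> simp [Cfsg.Lie.star4, Cfsg.Lie.pairOf, Zm, he, h2, hee, pow_two]

/-- A non-trivial law holds in only finitely many Suzuki groups: for every non-trivial element w of the free group on countably many generators there is N such that for q = 2^(2m+1) with m ≥ N some substitution of elements of the Suzuki group over the field with q elements into w is not the identity. -/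
theorem result (w : FreeGroup ℕ) (hw : w ≠ 1) :
    ∃ N : ℕ, ∀ (F : Type*) [Field F] [Fintype F] (m : ℕ), 1 ≤ m → N ≤ m →
      Fintype.card F = 2 ^ (2 * m + 1) →
      ∃ f : ℕ → ↥(Cfsg.Lie.Sz F (2 ^ (m + 1))), FreeGroup.lift f w ≠ 1 := by
  classical
  obtain ⟨C, hC⟩ := exists_bound w
  refine ⟨C, fun F _ _ m hm hN hF => ?_⟩
  set e := 2 ^ (m + 1) with he
  have he1 : 1 ≤ e := Nat.one_le_two_pow
  have he2 : 2 ≤ e := by rw [he, pow_succ]; have := Nat.one_le_two_pow (n := m); omega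
  have hchar : CharP F 2 := by
    obtain ⟨p, hp⟩ := CharP.exists F
    obtain ⟨n, hp1, hpn⟩ := FiniteField.card F p
    have hdvd : p ∣ 2 ^ (2 * m + 1) := by
      rw [← hF, hpn]; exact dvd_pow_self p n.ne_zero
    have : p = 2 := (Nat.prime_dvd_prime_iff_eq hp1 Nat.prime_two).mp (hp1.dvd_of_dvd_pow hdvd)
    rw [← this]; exact hp
  have hee : ∀ x : F, (x ^ e) ^ e = x ^ 2 := by
    intro x
    rw [← pow_mul]
    have h1 : e * e = Fintype.card F * 2 := by
      rw [hF, he, ← pow_add, ← pow_succ]; congr 1; omega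
    rw [h1, pow_mul, FiniteField.pow_card]
  set P : GL (Fin 4) F[X] := FreeGroup.lift (gen F e) w with hP
  have hP1 : P ≠ 1 := lift_ne_one e he2 w hw
  obtain ⟨i, j, hij⟩ : ∃ i j, (P : Matrix (Fin 4) (Fin 4) F[X]) i j ≠ (1 : Matrix (Fin 4) (Fin 4) F[X]) i j := by
    by_contra hcon
    push Not at hcon
    apply hP1
    apply Units.ext
    exact Matrix.ext hcon
  have hD : (P : Matrix (Fin 4) (Fin 4) F[X]) i j - (1 : Matrix (Fin 4) (Fin 4) F[X]) i j ≠ 0 := sub_ne_zero.mpr hij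
  have hDdeg : ((P : Matrix (Fin 4) (Fin 4) F[X]) i j - (1 : Matrix (Fin 4) (Fin 4) F[X]) i j).natDegree ≤ C * e := by
    refine le_trans (Polynomial.natDegree_sub_le _ _) (max_le (hC F e he1 i j) ?_)
    rw [Matrix.one_apply]
    split_ifs <;> simp
  have hlt : C * e < Fintype.card F := by
    have h1 : Fintype.card F = e * 2 ^ m := by
      rw [hF, he, ← pow_add]; congr 1; omega
    have h2 : C < 2 ^ m := lt_of_le_of_lt hN Nat.lt_two_pow_self
    rw [h1, mul_comm]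
    exact Nat.mul_lt_mul_of_pos_left h2 (by omega)
  obtain ⟨t, ht⟩ : ∃ t : F, ((P : Matrix (Fin 4) (Fin 4) F[X]) i j - (1 : Matrix (Fin 4) (Fin 4) F[X]) i j).eval t ≠ 0 := by
    by_contra hcon
    push Not at hcon
    apply hD
    apply Polynomial.eq_zero_of_natDegree_lt_card_of_eval_eq_zero' _ Finset.univ (fun t _ => hcon t)
    rw [Finset.card_univ]
    omega
  let ev : GL (Fin 4) F[X] →* GL (Fin 4) F := Matrix.GeneralLinearGroup.map (Polynomial.evalRingHom t)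
  have hevZ : ∀ k : ℕ, ev (Z (X ^ (k + 1)) (X ^ ((k + 1) * e))) = Z (t ^ (k + 1)) ((t ^ (k + 1)) ^ e) := by
    intro k
    apply Units.ext
    change (Zm ((X : F[X]) ^ (k + 1)) (X ^ ((k + 1) * e))).map (Polynomial.evalRingHom t) = Zm (t ^ (k + 1)) ((t ^ (k + 1)) ^ e)
    ext i j
    fin_cases i <;> fin_cases j <;> simp [Zm, pow_mul]
  have hevW : ev (W F[X]) = W F := by
    apply Units.ext
    change (Wm F[X]).map (Polynomial.evalRingHom t) = Wm F
    ext i j
    fin_cases i <;> fin_cases j <;> simp [Wm]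
  have hmem : ∀ k, ev (gen F e k) ∈ Cfsg.Lie.Sz F e := by
    intro k
    have e0 : e ≠ 0 := by omega
    have h1 := Zm_mem e e0 hee (t ^ (k + 1))
    have h2 := Wm_mem (F := F) e e0
    rw [gen, map_mul, map_mul, map_mul, hevZ, hevW]
    exact mul_mem (mul_mem (mul_mem h1 h2) h1) h2
  refine ⟨fun k => ⟨ev (gen F e k), hmem k⟩, fun hcon => ht ?_⟩
  have h1 : (Cfsg.Lie.Sz F e).subtype.comp (FreeGroup.lift (fun k => (⟨ev (gen F e k), hmem k⟩ : Cfsg.Lie.Sz F e))) =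
      ev.comp (FreeGroup.lift (gen F e)) := by
    ext k : 1
    simp
  have h2 := DFunLike.congr_fun h1 w
  rw [MonoidHom.comp_apply, MonoidHom.comp_apply, hcon, map_one, ← hP] at h2
  have h3 := congrArg (fun A : GL (Fin 4) F => (A : Matrix (Fin 4) (Fin 4) F) i j) h2
  have h4 : ((ev P : GL (Fin 4) F) : Matrix (Fin 4) (Fin 4) F) i j = ((P : Matrix (Fin 4) (Fin 4) F[X]) i j).eval t := rfl
  simp only [h4, Units.val_one] at h3
  rw [Polynomial.eval_sub, ← h3, Matrix.one_apply, Matrix.one_apply]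
  split_ifs <;> simp

end Cfsg.Agent.S2354
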