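import Cfsg.Statements.S2355
import Cfsg.Agent.LibLawSU

set_option autoImplicit false
open Cfsg

namespace Cfsg.Agent.S2355

open Matrix CfsgLib.LawSL2 CfsgLib.LawPt CfsgLib.LawEmb CfsgLib.LawEmb2 CfsgLib.LawSU

theorem card_bound {H : Type*} {ι F : Type*} [Fintype ι] [Fintype F] (j : H → Matrix ι ι F)
    (hj : Function.Injective j) (N : ℕ) (hN : 1 ≤ N) (hF : Fintype.card F ≤ N ^ 2)
    (hι : Fintype.card ι ≤ 2 * N + 2) :
    Finite H ∧ Nat.card H ≤ (N ^ 2) ^ ((2 * N + 2) * (2 * N + 2)) := by
  have hfin : Finite (Matrix ι ι F) := inferInstanceAs (Finite (ι → ι → F))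
  refine ⟨Finite.of_injective j hj, ?_⟩
  refine (Nat.card_le_card_of_injective j hj).trans ?_
  have h1 : Nat.card (Matrix ι ι F) = Fintype.card F ^ (Fintype.card ι * Fintype.card ι) := by
    classical
    change Nat.card (ι → ι → F) = _
    rw [Nat.card_eq_fintype_card, Fintype.card_fun, Fintype.card_fun, pow_mul]
  rw [h1]
  calc Fintype.card F ^ (Fintype.card ι * Fintype.card ι) ≤ (N ^ 2) ^ (Fintype.card ι * Fintype.card ι) :=
        Nat.pow_le_pow_left hF _
    _ ≤ _ := Nat.pow_le_pow_right (by positivity) (Nat.mul_le_mul hι hι)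

theorem card_quot {G H : Type*} [Group G] [Group H] (e : G ≃* H ⧸ Subgroup.center H) {B : ℕ}
    (h : Finite H ∧ Nat.card H ≤ B) : Nat.card G ≤ B := by
  obtain ⟨h1, h2⟩ := h
  rw [Nat.card_congr e.toEquiv]
  exact (Nat.card_le_card_of_surjective _ (QuotientGroup.mk_surjective)).trans h2

theorem contra {G H : Type*} [Group G] [Group H] (w : FreeGroup ℕ) (e : G ≃* H)
    (h : NL w H) (hG : ∀ f : ℕ → G, FreeGroup.lift f w = 1) : False := by
  obtain ⟨f, hf⟩ := h.map e.symm.toMonoidHom e.symm.injective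
  exact hf (hG f)

/-- A non-trivial law is satisfied by only finitely many finite simple groups that are alternating or classical, up to isomorphism: for every non-trivial element w of the free group on countably many generators there is a bound N such that every alternating group of degree ≥ 5 and every simple classical group (linear, symplectic, unitary or orthogonal, in this problem's sense) in which w is a law has order at most N. -/
theorem result (w : FreeGroup ℕ) (hw : w ≠ 1) :
    ∃ N : ℕ, ∀ (G : Type*) [Group G] [Finite G],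
      (Cfsg.IsAlternating G ∨ Cfsg.IsPSL G ∨ Cfsg.IsPSp G ∨ Cfsg.IsPSU G ∨ Cfsg.IsPOmegaOdd G ∨
          Cfsg.IsPOmegaPlus G ∨ Cfsg.IsPOmegaMinus G) →
      (∀ f : ℕ → G, FreeGroup.lift f w = 1) → Nat.card G ≤ N := by
  obtain ⟨x, hx⟩ := exists_comm_ne_one w hw
  set w' : FreeGroup ℕ := w * FreeGroup.of x * w⁻¹ * (FreeGroup.of x)⁻¹ with hw'
  obtain ⟨N1, hN1⟩ := nlc_gl.{0} w' hx
  obtain ⟨N2, hN2⟩ := CfsgLib.LawAlt.exists_bound w hw
  obtain ⟨N3, hN3⟩ := CfsgLib.LawAlt.exists_bound w' hx
  set N : ℕ := N1 + N2 + N3 + bound w' + 3 with hN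
  set B : ℕ := (N ^ 2) ^ ((2 * N + 2) * (2 * N + 2)) with hB
  have hNN : N ≤ N ^ 2 := by nlinarith
  -- the GL dichotomy
  have key : ∀ (F : Type) [Field F] [Fintype F] (n : ℕ), 2 ≤ n → (¬ NLC w' (GL (Fin n) F)) →
      Fintype.card F ≤ N ^ 2 ∧ n ≤ N := by
    intro F _ _ n hn h
    constructor
    · by_contra hcon
      exact h (hN1 F n hn (Or.inl (by omega)))
    · by_contra hcon
      exact h (hN1 F n hn (Or.inr (by omega)))
  refine ⟨B + N.factorial, fun G _ _ hG hlaw => ?_⟩
  rcases hG with ⟨n, hn, ⟨e⟩⟩ | ⟨F, _, _, n, hn, _, ⟨e⟩⟩ | ⟨F, _, _, n, hn, _, ⟨e⟩⟩ |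
    ⟨F, _, _, n, q, hF, hn, _, ⟨e⟩⟩ | ⟨F, _, _, n, hn, _, ⟨e⟩⟩ | ⟨F, _, _, n, hn, ⟨e⟩⟩ |
    ⟨F, _, _, n, a, b, hn, _, ⟨e⟩⟩
  · have hnN : n < N2 := by
      by_contra hcon
      exact contra w e (hN2 n (by omega)) hlaw
    rw [Nat.card_congr e.toEquiv]
    refine (Nat.card_le_card_of_injective (fun s : alternatingGroup (Fin n) => (s : Equiv.Perm (Fin n)))
      Subtype.val_injective).trans ?_
    rw [Nat.card_eq_fintype_card, Fintype.card_perm, Fintype.card_fin]
    exact (Nat.factorial_le (by omega)).trans (Nat.le_add_left _ _)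
  · obtain ⟨h1, h2⟩ := key F n hn (fun h => contra w e (nl_sl w' F n h).quot hlaw)
    refine (card_quot e (card_bound (fun g : Matrix.SpecialLinearGroup (Fin n) F => (g : Matrix (Fin n) (Fin n) F))
      (fun a b hab => Subtype.ext hab) N (by omega) h1
      (by rw [Fintype.card_fin]; omega))).trans (Nat.le_add_right _ _)
  · obtain ⟨h1, h2⟩ := key F n hn (fun h => contra w e (nl_sp w' F n h).quot hlaw)
    refine (card_quot e (card_bound (fun g : Matrix.symplecticGroup (Fin n) F => (g : Matrix (Fin n ⊕ Fin n) (Fin n ⊕ Fin n) F))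
      (fun a b hab => Subtype.ext hab) N (by omega) h1
      (by rw [Fintype.card_sum, Fintype.card_fin]; omega))).trans (Nat.le_add_right _ _)
  · have h1 : q ≤ N := by
      by_contra hcon
      exact contra w e (nl_su_q w' hx F q n hF (by omega) (by omega)).quot hlaw
    have h2 : n ≤ N := by
      by_contra hcon
      exact contra w e (nl_su_n w' F q n (hN3 n (by omega))).quot hlaw
    refine (card_quot e (card_bound (fun g : SU n F q => ((g : Matrix.SpecialLinearGroup (Fin n) F) : Matrix (Fin n) (Fin n) F))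
      (fun a b hab => Subtype.ext (Subtype.ext hab)) N (by omega) (by rw [hF]; exact Nat.pow_le_pow_left h1 2)
      (by rw [Fintype.card_fin]; omega))).trans (Nat.le_add_right _ _)
  · obtain ⟨h1, h2⟩ := key F n (by omega) (fun h => contra w e (nl_odd w' F n h).quot hlaw)
    refine (card_quot e (card_bound (fun g : Omega F (quadFormOdd n F) => ((g : isometryGroup F (quadFormOdd n F)) : GL (Unit ⊕ (Fin n ⊕ Fin n)) F).1)
      (fun a b hab => Subtype.ext (Subtype.ext (Units.ext hab))) N (by omega) h1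
      (by simp only [Fintype.card_sum, Fintype.card_fin, Fintype.card_unit]; omega))).trans (Nat.le_add_right _ _)
  · obtain ⟨h1, h2⟩ := key F n (by omega) (fun h => contra w e (nl_plus w' F n h).quot hlaw)
    refine (card_quot e (card_bound (fun g : Omega F (quadFormPlus n F) => ((g : isometryGroup F (quadFormPlus n F)) : GL (Fin n ⊕ Fin n) F).1)
      (fun a b hab => Subtype.ext (Subtype.ext (Units.ext hab))) N (by omega) h1
      (by simp only [Fintype.card_sum, Fintype.card_fin]; omega))).trans (Nat.le_add_right _ _)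
  · obtain ⟨h1, h2⟩ := key F (n - 1) (by omega) (fun h => contra w e (nl_minus w' F (n - 1) a b h).quot hlaw)
    refine (card_quot e (card_bound (fun g : Omega F (quadFormMinus (n - 1) F a b) =>
      ((g : isometryGroup F (quadFormMinus (n - 1) F a b)) : GL ((Fin (n - 1) ⊕ Fin (n - 1)) ⊕ Fin 2) F).1)
      (fun a b hab => Subtype.ext (Subtype.ext (Units.ext hab))) N (by omega) h1
      (by simp only [Fintype.card_sum, Fintype.card_fin]; omega))).trans (Nat.le_add_right _ _)

end Cfsg.Agent.S2355
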