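import Cfsg.Statements.S2356
import Cfsg.Agent.LibSi5

set_option autoImplicit false
open Cfsg

namespace Cfsg.Agent.S2356

/-- Let q be odd, F the field with q² elements, S = SU_3(F) (determinant-one isometries of the standard Hermitian form) and t an involution of S. Then: exactly q(q−1) involutions other than t commute with t; exactly q(q−2)(q²−1) involutions do not commute with t but commute with some involution commuting with t; exactly (q+1)(q²−1) involutions x do not commute with t and admit no involution commuting with both t and x; and every involution can be reached from t in at most three steps, each step going to an involution that commutes with the previous one (the commuting involution graph is connected of diameter 3). -/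
theorem result {F : Type*} [Field F] [Fintype F] {q : ℕ} (hq : Odd q)
    (hF : Fintype.card F = q ^ 2) (t : ↥(Cfsg.SU 3 F q)) (ht : t ≠ 1) (ht2 : t * t = 1) :
    Nat.card {x : ↥(Cfsg.SU 3 F q) // x ≠ 1 ∧ x * x = 1 ∧ x ≠ t ∧ Commute t x} = q * (q - 1) ∧
    Nat.card {x : ↥(Cfsg.SU 3 F q) // x ≠ 1 ∧ x * x = 1 ∧ ¬ Commute t x ∧
        ∃ y : ↥(Cfsg.SU 3 F q), y ≠ 1 ∧ y * y = 1 ∧ Commute t y ∧ Commute y x} = q * (q - 2) * (q ^ 2 - 1) ∧
    Nat.card {x : ↥(Cfsg.SU 3 F q) // x ≠ 1 ∧ x * x = 1 ∧ ¬ Commute t x ∧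
        ∀ y : ↥(Cfsg.SU 3 F q), y ≠ 1 → y * y = 1 → ¬ (Commute t y ∧ Commute y x)} = (q + 1) * (q ^ 2 - 1) ∧
    ∀ x : ↥(Cfsg.SU 3 F q), x ≠ 1 → x * x = 1 →
      ∃ y z : ↥(Cfsg.SU 3 F q), y ≠ 1 ∧ y * y = 1 ∧ z ≠ 1 ∧ z * z = 1 ∧
        Commute t y ∧ Commute y z ∧ Commute z x := by
  obtain ⟨σ, hσ, hσ2, hσi⟩ := Cfsg.Agent.H22.exists_sigma hF
  have h2 : (2 : F) ≠ 0 := by
    intro h
    have h3 : (ringChar F) ∣ 2 := by
      rw [← ringChar.spec]
      exact_mod_cast h
    obtain ⟨n, hp, hn⟩ := FiniteField.card F (ringChar F)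
    have h4 : ringChar F = 2 := (Nat.prime_dvd_prime_iff_eq hp Nat.prime_two).1 h3
    rw [hF, h4] at hn
    have h5 : Odd (2 ^ (n : ℕ)) := by rw [← hn]; exact hq.pow
    exact (Nat.not_even_iff_odd.2 h5) ((even_two).pow_of_ne_zero n.ne_zero)
  have H : CfsgLib.Si.HS F q σ := ⟨hF, hσ, hσ2, hσi, h2⟩
  obtain ⟨w, hw, rfl⟩ := CfsgLib.Si.inv_form H ht ht2
  refine ⟨CfsgLib.Si.count_comm H hw, CfsgLib.Si.count_nbr H hw, CfsgLib.Si.count_far H hw, ?_⟩
  intro x hx hx2
  obtain ⟨z, hz, rfl⟩ := CfsgLib.Si.inv_form H hx hx2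
  exact CfsgLib.Si.diam H hw hz

end Cfsg.Agent.S2356
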