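import Cfsg.Statements.S2360
import Cfsg.Agent.LibSi4

set_option autoImplicit false
open Cfsg

namespace Cfsg.Agent.S2360

/-- Let q be odd, F the field with q² elements and S = SU_3(F) (determinant-one isometries of the standard Hermitian form). Then all involutions of S are conjugate; there are exactly q²(q²−q+1) of them; the centralizer of an involution has order q(q+1)(q²−1), the order of the full unitary group of degree 2; and for two distinct commuting involutions t and x there is exactly one further involution commuting with both. -/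
theorem result {F : Type*} [Field F] [Fintype F] {q : ℕ} (hq : Odd q)
    (hF : Fintype.card F = q ^ 2) (t : ↥(Cfsg.SU 3 F q)) (ht : t ≠ 1) (ht2 : t * t = 1) :
    (∀ x : ↥(Cfsg.SU 3 F q), x ≠ 1 → x * x = 1 → ∃ g : ↥(Cfsg.SU 3 F q), g * t * g⁻¹ = x) ∧
    Nat.card {x : ↥(Cfsg.SU 3 F q) // x ≠ 1 ∧ x * x = 1} = q ^ 2 * (q ^ 2 - q + 1) ∧
    Nat.card ↥(Subgroup.centralizer ({t} : Set ↥(Cfsg.SU 3 F q))) = q * (q + 1) * (q ^ 2 - 1) ∧
    ∀ x : ↥(Cfsg.SU 3 F q), x ≠ 1 → x * x = 1 → x ≠ t → Commute t x →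
      Nat.card {y : ↥(Cfsg.SU 3 F q) // y ≠ 1 ∧ y * y = 1 ∧ y ≠ t ∧ y ≠ x ∧ Commute t y ∧ Commute x y} = 1 := by
  obtain ⟨σ, hσ, hσ2, hσi⟩ := Cfsg.Agent.H22.exists_sigma hF
  have h2 : (2 : F) ≠ 0 := by
    intro h
    have h3 : (ringChar F) ∣ 2 := by
      rw [← ringChar.spec]
      exact_mod_cast h
    obtain ⟨n, hp, hn⟩ := FiniteField.card F (ringChar F)
    have h4 : ringChar F = 2 := (Nat.prime_dvd_prime_iff_eq hp Nat.prime_two).1 h3
    rw [hF, h4] at hn
    have h5 : Odd (2 ^ (n : ℕ)) := by rw [← hn]; exact hq.pow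
    exact (Nat.not_even_iff_odd.2 h5) ((even_two).pow_of_ne_zero n.ne_zero)
  have H : CfsgLib.Si.HS F q σ := ⟨hF, hσ, hσ2, hσi, h2⟩
  exact ⟨fun x hx hx2 => CfsgLib.Si.inv_conj H ht ht2 hx hx2, CfsgLib.Si.inv_count H, CfsgLib.Si.card_cent H ht ht2,
    fun x hx hx2 hxt hc => CfsgLib.Si.third_unique H ht ht2 hx hx2 hxt hc⟩

end Cfsg.Agent.S2360
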