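import Cfsg.Statements.S2387
import Cfsg.Agent.LibCP2H13
import Cfsg.Agent.LibClsH13

set_option autoImplicit false
open scoped MatrixGroups
open Cfsg

namespace Cfsg.Agent.S2387

open Module Polynomial CfsgLib.CP CfsgLib.Cls in
theorem gl_conj {F : Type*} [Field F] [Fintype F] {p : ℕ} [Fact p.Prime] [CharP F p] {n : ℕ} {g h : GL (Fin n) F}
    (hg : (orderOf g).Coprime p) (hh : (orderOf h).Coprime p) (e : (g : Matrix (Fin n) (Fin n) F).charpoly = (h : Matrix (Fin n) (Fin n) F).charpoly) :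
    IsConj g h := by
  classical
  have hpow : ∀ (x : GL (Fin n) F), (Matrix.toLin' (x : Matrix (Fin n) (Fin n) F)) ^ orderOf x = 1 := by
    intro x
    rw [← Matrix.toLin'_pow, ← Units.val_pow_eq_pow_val, pow_orderOf_eq_one, Units.val_one, Matrix.toLin'_one]; rfl
  obtain ⟨ψ, hψ⟩ := conj_of_charpoly hg (hpow g) hh (hpow h) (by rw [Matrix.charpoly_toLin', Matrix.charpoly_toLin', e])
  exact isConj_of_lin ψ hψ

open Module Polynomial CfsgLib.CP CfsgLib.Cls in
theorem main {F : Type*} [Field F] [Fintype F] (p : ℕ) [Fact p.Prime] [CharP F p] (m : ℕ) :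
    Nat.card {c : ConjClasses (GL (Fin (m + 1)) F) //
      ∃ g : GL (Fin (m + 1)) F, ConjClasses.mk g = c ∧ (orderOf g).Coprime p} = Nat.card (Fˣ × (Fin m → F)) := by
  classical
  have hε : ((-1 : F) ^ (m + 1)) * (-1) ^ (m + 1) = 1 := by rw [← mul_pow]; simp
  have hcz : ∀ g : GL (Fin (m + 1)) F, (g : Matrix (Fin (m + 1)) (Fin (m + 1)) F).charpoly.coeff 0 = (-1) ^ (m + 1) * (g : Matrix (Fin (m + 1)) (Fin (m + 1)) F).det := by
    intro g
    have h := Matrix.det_eq_sign_charpoly_coeff (g : Matrix (Fin (m + 1)) (Fin (m + 1)) F)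
    rw [Fintype.card_fin] at h
    rw [h, ← mul_assoc, hε, one_mul]
  refine card_eq_of_fibres (G := {g : GL (Fin (m + 1)) F // (orderOf g).Coprime p})
    (fun g => ⟨ConjClasses.mk g.1, g.1, rfl, g.2⟩)
    (fun g => (Matrix.GeneralLinearGroup.det g.1, fun i => (g.1 : Matrix (Fin (m + 1)) (Fin (m + 1)) F).charpoly.coeff (i.1 + 1))) ?_ ?_ ?_
  · rintro ⟨c, g, rfl, hg⟩
    exact ⟨⟨g, hg⟩, rfl⟩
  · rintro ⟨d, a⟩
    obtain ⟨P, hP1, hP2, hP3⟩ := exists_monic (Fin.cons ((-1) ^ (m + 1) * (d : F)) a : Fin (m + 1) → F)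
    obtain ⟨M, hM⟩ := exists_companion hP1 hP2
    have h0 : P.coeff 0 = (-1) ^ (m + 1) * (d : F) := hP3 0
    have hPs : ∀ i : Fin m, P.coeff (i.1 + 1) = a i := fun i => hP3 i.succ
    have hdet : M.det = d := by
      rw [Matrix.det_eq_sign_charpoly_coeff, hM, Fintype.card_fin, h0, ← mul_assoc, hε, one_mul]
    let h : GL (Fin (m + 1)) F := Matrix.GeneralLinearGroup.mkOfDetNeZero M (by rw [hdet]; exact d.ne_zero)
    obtain ⟨N, hN⟩ := exists_pow_coprime (F := F) (p := p) h
    have hc : ((h ^ (Fintype.card F ^ N) : GL (Fin (m + 1)) F) : Matrix (Fin (m + 1)) (Fin (m + 1)) F).charpoly = P := by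
      rw [Units.val_pow_eq_pow_val, charpoly_pow]
      exact hM
    refine ⟨⟨h ^ (Fintype.card F ^ N), hN⟩, Prod.ext (Units.ext ?_) (funext fun i => ?_)⟩
    · show ((h ^ (Fintype.card F ^ N) : GL (Fin (m + 1)) F) : Matrix (Fin (m + 1)) (Fin (m + 1)) F).det = d
      rw [Matrix.det_eq_sign_charpoly_coeff, hc, Fintype.card_fin, h0, ← mul_assoc, hε, one_mul]
    · show ((h ^ (Fintype.card F ^ N) : GL (Fin (m + 1)) F) : Matrix (Fin (m + 1)) (Fin (m + 1)) F).charpoly.coeff (i.1 + 1) = a i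
      rw [hc, hPs]
  · rintro ⟨g, hg⟩ ⟨h, hh⟩
    constructor
    · intro e
      have e1 := congrArg Subtype.val e
      rw [ConjClasses.mk_eq_mk_iff_isConj, isConj_iff] at e1
      obtain ⟨c, hc⟩ := e1
      change c * g * c⁻¹ = h at hc
      have h1 : (h : Matrix (Fin (m + 1)) (Fin (m + 1)) F).charpoly = (g : Matrix (Fin (m + 1)) (Fin (m + 1)) F).charpoly := by
        rw [← hc, Units.val_mul, Matrix.charpoly_mul_comm, ← Units.val_mul, inv_mul_cancel_left]
      refine Prod.ext (Units.ext ?_) (funext fun i => ?_)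
      · show (g : Matrix (Fin (m + 1)) (Fin (m + 1)) F).det = (h : Matrix (Fin (m + 1)) (Fin (m + 1)) F).det
        rw [Matrix.det_eq_sign_charpoly_coeff, Matrix.det_eq_sign_charpoly_coeff, h1]
      · exact (congrArg (fun P : F[X] => P.coeff (i.1 + 1)) h1).symm
    · intro e
      refine Subtype.ext ?_
      rw [ConjClasses.mk_eq_mk_iff_isConj]
      refine gl_conj hg hh (monic_ext (n := m + 1) (Matrix.charpoly_monic _) (Matrix.charpoly_monic _)
        (by rw [Matrix.charpoly_natDegree_eq_dim, Fintype.card_fin]) (by rw [Matrix.charpoly_natDegree_eq_dim, Fintype.card_fin]) fun i => ?_)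
      refine Fin.cases ?_ (fun j => ?_) i
      · show (g : Matrix (Fin (m + 1)) (Fin (m + 1)) F).charpoly.coeff 0 = (h : Matrix (Fin (m + 1)) (Fin (m + 1)) F).charpoly.coeff 0
        rw [hcz, hcz]
        exact congrArg (fun x => (-1) ^ (m + 1) * x) (congrArg (fun x : Fˣ × (Fin m → F) => (x.1 : F)) e)
      · exact congrFun (congrArg Prod.snd e) j

/-- In `GL_n(q)` with `n ≥ 1`, `q` a power of the prime `p`, the number of conjugacy classes of elements of order prime to `p` (diagonalisable over the algebraic closure; determined by the characteristic polynomial) is `(q - 1) q^(n-1)`. -/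
theorem result {F : Type*} [Field F] [Fintype F] {q : ℕ} (hq : Fintype.card F = q) (p : ℕ) [Fact p.Prime] [CharP F p] (n : ℕ) (hn : 1 ≤ n) :
    Nat.card {c : ConjClasses (GL (Fin n) F) // ∃ g : GL (Fin n) F, ConjClasses.mk g = c ∧ (orderOf g).Coprime p} = (q - 1) * q ^ (n - 1) := by
  classical
  obtain ⟨m, rfl⟩ : ∃ m, n = m + 1 := ⟨n - 1, by omega⟩
  rw [main, Nat.card_prod, Nat.card_fun, Nat.card_eq_fintype_card (α := F), hq, Nat.card_eq_fintype_card (α := Fin m), Fintype.card_fin, Nat.add_sub_cancel,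
    Nat.card_eq_fintype_card, Fintype.card_units, hq]

end Cfsg.Agent.S2387
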