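import Cfsg.Statements.S2478
import Cfsg.Agent.LibH22Kg3
import Cfsg.Agent.S2387

set_option autoImplicit false
open Cfsg

namespace Cfsg.Agent.S2478
open Cfsg.Agent.H22Kg Module CfsgLib.Cls in
theorem upper {F : Type*} [Field F] [Fintype F] (n : ℕ) :
    Nat.card (ConjClasses (Matrix.GeneralLinearGroup (Fin n) F)) ≤ Fintype.card F ^ n := by
  classical
  haveI : Finite (Sq F n 1 n) := (H22Kg.sq_le n n).1
  refine le_trans ?_ (H22Kg.sq_le n n).2
  have hex : ∀ C : ConjClasses (Matrix.GeneralLinearGroup (Fin n) F), ∃ g : Matrix.GeneralLinearGroup (Fin n) F, ∃ s : Sq F n 1 n,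
      ConjClasses.mk g = C ∧ Dec (Matrix.toLin' (g : Matrix (Fin n) (Fin n) F)) s.1 := by
    intro C
    obtain ⟨g, rfl⟩ := ConjClasses.mk_surjective C
    obtain ⟨s, hs⟩ := exists_dec' (Matrix.toLin' (g : Matrix (Fin n) (Fin n) F)) (by
      intro x y h
      rw [Matrix.toLin'_apply, Matrix.toLin'_apply] at h
      have h2 := congrArg (fun v => ((g⁻¹ : Matrix.GeneralLinearGroup (Fin n) F) : Matrix (Fin n) (Fin n) F).mulVec v) h
      simp only [Matrix.mulVec_mulVec] at h2
      have h3 : ((g⁻¹ : Matrix.GeneralLinearGroup (Fin n) F) : Matrix (Fin n) (Fin n) F) * (g : Matrix (Fin n) (Fin n) F) = 1 := by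
        rw [← Units.val_mul, inv_mul_cancel]; rfl
      rw [h3, Matrix.one_mulVec, Matrix.one_mulVec] at h2
      exact h2) (n := n) (by simp)
    exact ⟨g, s, rfl, hs⟩
  choose g s hg hs using hex
  refine Nat.card_le_card_of_injective s (fun C C' h => ?_)
  have h1 := hs C
  have h2 := hs C'
  rw [← h] at h2
  obtain ⟨ψ, hψ⟩ := conj_of_dec h1 h2
  rw [← hg C, ← hg C']
  rw [ConjClasses.mk_eq_mk_iff_isConj]
  exact isConj_of_lin ψ (fun v => by
    have := hψ v
    rw [Matrix.toLin'_apply, Matrix.toLin'_apply] at this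
    exact this)

/-- The number of conjugacy classes of GL(n,q): for F a finite field with q elements and n ≥ 1, the number k of conjugacy classes of GL(n,F) satisfies q^n − q^(n−1) ≤ k ≤ q^n. -/
theorem result {F : Type*} [Field F] [Fintype F] (n : ℕ) (hn : 1 ≤ n) :
    Fintype.card F ^ n - Fintype.card F ^ (n - 1) ≤ Nat.card (ConjClasses (Matrix.GeneralLinearGroup (Fin n) F)) ∧ Nat.card (ConjClasses (Matrix.GeneralLinearGroup (Fin n) F)) ≤ Fintype.card F ^ n := by
  refine ⟨?_, upper n⟩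
  obtain ⟨p, hp⟩ := CharP.exists F
  haveI : Fact p.Prime := ⟨CharP.char_is_prime F p⟩
  have h := Cfsg.Agent.S2387.result (F := F) rfl p n hn
  have h2 : Fintype.card F ^ n - Fintype.card F ^ (n - 1) = (Fintype.card F - 1) * Fintype.card F ^ (n - 1) := by
    obtain ⟨m, rfl⟩ : ∃ m, n = m + 1 := ⟨n - 1, by omega⟩
    rw [Nat.add_sub_cancel, pow_succ, Nat.sub_mul, one_mul, mul_comm]
  rw [h2, ← h]
  haveI : Finite (ConjClasses (Matrix.GeneralLinearGroup (Fin n) F)) := inferInstance
  exact Nat.card_le_card_of_injective Subtype.val Subtype.val_injective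

end Cfsg.Agent.S2478
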