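import Mathlib
-- Template for statement S2485 (row 2485; see /opt/grader/pristine/manifest.json for weights).
-- Copy to Cfsg/Agent/S2485.lean and replace the sorry. The statement below is byte-identical to the frozen
-- statement Cfsg.CfsgFrozen.S2485 (Cfsg/Statements/S2485.lean; the theorem Cfsg.kfact6_projective_general_linear_two_mersenne_prime_sylow_two_subgroups_pairwise_meet);
-- the grader kernel-checks Cfsg.Agent.S2485.result against that frozen type. Keep the theorem IN THIS FILE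
-- (a `result` declared elsewhere and merely imported here is not credited); helpers may live anywhere
-- under Cfsg/Agent/.
import Cfsg.Statements.S2485
-- import your own Cfsg.Agent.* helpers here

set_option autoImplicit false
open scoped Pointwise
open Cfsg

namespace Cfsg.Agent.S2485

open Matrix

variable {q : ℕ} [Fact q.Prime]

theorem mk_eq_of_smul (a b : GL (Fin 2) (ZMod q)) (c : ZMod q)
    (h : (a : Matrix (Fin 2) (Fin 2) (ZMod q)) = c • (b : Matrix (Fin 2) (Fin 2) (ZMod q))) :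
    (QuotientGroup.mk a : GL (Fin 2) (ZMod q) ⧸ Subgroup.center (GL (Fin 2) (ZMod q))) =
      QuotientGroup.mk b := by
  symm
  rw [QuotientGroup.eq]
  rw [Matrix.GeneralLinearGroup.mem_center_iff_val_mem_range_scalar]
  refine ⟨c, ?_⟩
  have : ((b⁻¹ * a : GL (Fin 2) (ZMod q)) : Matrix (Fin 2) (Fin 2) (ZMod q)) = c • 1 := by
    rw [Units.val_mul, h, Matrix.mul_smul, Units.inv_mul]
  rw [this]
  ext i j
  simp [Matrix.scalar_apply, Matrix.smul_apply, Matrix.one_apply, Matrix.diagonal_apply]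

theorem exists_smul_of_mk_eq (a b : GL (Fin 2) (ZMod q))
    (h : (QuotientGroup.mk a : GL (Fin 2) (ZMod q) ⧸ Subgroup.center (GL (Fin 2) (ZMod q))) =
      QuotientGroup.mk b) :
    ∃ c : ZMod q, (a : Matrix (Fin 2) (Fin 2) (ZMod q)) = c • (b : Matrix (Fin 2) (Fin 2) (ZMod q)) := by
  have h' := h.symm
  rw [QuotientGroup.eq, Matrix.GeneralLinearGroup.mem_center_iff_val_mem_range_scalar] at h'
  obtain ⟨c, hc⟩ := h'
  refine ⟨c, ?_⟩
  have e : (a : Matrix (Fin 2) (Fin 2) (ZMod q)) = (b : Matrix (Fin 2) (Fin 2) (ZMod q)) *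
      ((b⁻¹ * a : GL (Fin 2) (ZMod q)) : Matrix (Fin 2) (Fin 2) (ZMod q)) := by
    rw [← Units.val_mul, mul_inv_cancel_left]
  rw [e, ← hc]
  ext i j
  simp [Matrix.scalar_apply, Matrix.mul_apply, Matrix.smul_apply, Matrix.diagonal_apply, mul_comm]

/-- the complex structure -/
def t0 : GL (Fin 2) (ZMod q) :=
  ⟨!![0, 1; -1, 0], !![0, -1; 1, 0], by ext i j; fin_cases i <;> fin_cases j <;> simp [Matrix.mul_apply],
    by ext i j; fin_cases i <;> fin_cases j <;> simp [Matrix.mul_apply]⟩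

theorem t0_val : ((t0 : GL (Fin 2) (ZMod q)) : Matrix (Fin 2) (Fin 2) (ZMod q)) = !![0, 1; -1, 0] := rfl

theorem t0_sq : ((t0 : GL (Fin 2) (ZMod q)) : Matrix (Fin 2) (Fin 2) (ZMod q)) *
    ((t0 : GL (Fin 2) (ZMod q)) : Matrix (Fin 2) (Fin 2) (ZMod q)) = -1 := by
  rw [t0_val]
  ext i j; fin_cases i <;> fin_cases j <;> simp [Matrix.mul_apply]

theorem pow_key (m : ℕ) (hm : Odd m) (hq : q = 2 * m + 1) (a b : ZMod q) :
    (a • (1 : Matrix (Fin 2) (Fin 2) (ZMod q)) + b • ((t0 : GL (Fin 2) (ZMod q)) : Matrix (Fin 2) (Fin 2) (ZMod q))) ^ (q + 1)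
      = (a ^ 2 + b ^ 2) • 1 := by
  set T : Matrix (Fin 2) (Fin 2) (ZMod q) := ((t0 : GL (Fin 2) (ZMod q)) : Matrix (Fin 2) (Fin 2) (ZMod q)) with hT
  have hTT : T * T = -1 := t0_sq
  haveI : CharP (Matrix (Fin 2) (Fin 2) (ZMod q)) q := inferInstance
  have hcomm : Commute (a • (1 : Matrix (Fin 2) (Fin 2) (ZMod q))) (b • T) := by
    show _ * _ = _ * _
    simp
    rw [smul_comm]
  rw [pow_succ, add_pow_char_of_commute _ hcomm, smul_pow, smul_pow, ZMod.pow_card, ZMod.pow_card, one_pow]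
  have hTq : T ^ q = - T := by
    have e : T ^ q = T ^ (2 * m + 1) := congrArg (fun n => T ^ n) hq
    rw [e, pow_succ, pow_mul, sq, hTT, hm.neg_one_pow]
    simp
  rw [hTq, add_mul, mul_add, mul_add]
  simp only [Matrix.smul_mul, Matrix.mul_smul, smul_smul, one_mul, mul_one, neg_mul, smul_neg, hTT]
  rw [add_smul, sq, sq, mul_comm b a]
  simp

theorem two_grp (k m : ℕ) (hm : Odd m) (hq : q = 2 * m + 1) (hk : q + 1 = 2 ^ k) :
    IsPGroup 2 ↥(Subgroup.centralizer
      ({QuotientGroup.mk (t0 : GL (Fin 2) (ZMod q))} :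
        Set (GL (Fin 2) (ZMod q) ⧸ Subgroup.center (GL (Fin 2) (ZMod q))))) := by
  rintro ⟨g, hg⟩
  obtain ⟨g, rfl⟩ := QuotientGroup.mk_surjective g
  refine ⟨k + 1, ?_⟩
  rw [Subgroup.mem_centralizer_singleton_iff] at hg
  apply Subtype.ext
  show (QuotientGroup.mk g) ^ (2 ^ (k + 1)) = 1
  set T : Matrix (Fin 2) (Fin 2) (ZMod q) := ((t0 : GL (Fin 2) (ZMod q)) : Matrix (Fin 2) (Fin 2) (ZMod q)) with hT
  have hTT : T * T = -1 := t0_sq
  obtain ⟨c, hc⟩ : ∃ c : ZMod q, ((g * t0 : GL (Fin 2) (ZMod q)) : Matrix (Fin 2) (Fin 2) (ZMod q)) =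
      c • ((t0 * g : GL (Fin 2) (ZMod q)) : Matrix (Fin 2) (Fin 2) (ZMod q)) := by
    apply exists_smul_of_mk_eq
    rw [QuotientGroup.mk_mul, QuotientGroup.mk_mul]
    exact hg
  set A : Matrix (Fin 2) (Fin 2) (ZMod q) := (g : Matrix (Fin 2) (Fin 2) (ZMod q)) with hA
  rw [Units.val_mul, Units.val_mul, ← hA, ← hT] at hc
  have h1 : A * T * T = (c * c) • (T * T * A) := by
    rw [hc, Matrix.smul_mul, Matrix.mul_assoc T A T, hc, Matrix.mul_smul, smul_smul, Matrix.mul_assoc]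
  rw [Matrix.mul_assoc, hTT] at h1
  have h2 : (c * c) • A = A := by
    simp only [mul_neg, mul_one, neg_mul, one_mul, smul_neg, neg_inj] at h1
    exact h1.symm
  have hBT : A * A * T = T * (A * A) := by
    calc A * A * T = A * (A * T) := Matrix.mul_assoc _ _ _
      _ = c • (A * (T * A)) := by rw [hc, Matrix.mul_smul]
      _ = c • (A * T * A) := by rw [Matrix.mul_assoc]
      _ = c • (c • (T * A) * A) := by rw [hc]
      _ = T * ((c * c) • A * A) := by
        rw [Matrix.smul_mul, smul_smul, Matrix.smul_mul, Matrix.mul_smul, Matrix.mul_assoc]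
      _ = T * (A * A) := by rw [h2]
  set B : Matrix (Fin 2) (Fin 2) (ZMod q) := A * A with hB
  have hB2 : B = (B 0 0) • (1 : Matrix (Fin 2) (Fin 2) (ZMod q)) + (B 0 1) • T := by
    have e00 := congrFun (congrFun hBT 0) 0
    have e01 := congrFun (congrFun hBT 0) 1
    rw [hT, t0_val] at e00 e01
    simp [Matrix.mul_apply, Fin.sum_univ_two] at e00 e01
    rw [hT, t0_val]
    ext i j
    fin_cases i <;> fin_cases j
    · simp
    · simp
    · simp; linear_combination -e00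
    · simp; linear_combination -e01
  have hBq : B ^ (q + 1) = ((B 0 0) ^ 2 + (B 0 1) ^ 2) • 1 := by
    have := pow_key m hm hq (B 0 0) (B 0 1)
    rw [← hT, ← hB2] at this
    exact this
  rw [pow_succ, ← hk, mul_comm, pow_mul, ← QuotientGroup.mk_pow, ← QuotientGroup.mk_pow,
    ← QuotientGroup.mk_one]
  apply mk_eq_of_smul _ _ ((B 0 0) ^ 2 + (B 0 1) ^ 2)
  rw [Units.val_pow_eq_pow_val, Units.val_pow_eq_pow_val, ← hA, sq, ← hB, hBq]
  rfl

theorem common (y : GL (Fin 2) (ZMod q)) (hns : ∀ a b : ZMod q, a ^ 2 + b ^ 2 = 0 → a = 0 ∧ b = 0)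
    (h2 : (2 : ZMod q) ≠ 0) :
    ∃ u : GL (Fin 2) (ZMod q),
      (QuotientGroup.mk u : GL (Fin 2) (ZMod q) ⧸ Subgroup.center (GL (Fin 2) (ZMod q))) ≠ 1 ∧
      (∃ c : ZMod q, ((u * t0 : GL (Fin 2) (ZMod q)) : Matrix (Fin 2) (Fin 2) (ZMod q)) =
        c • ((t0 * u : GL (Fin 2) (ZMod q)) : Matrix (Fin 2) (Fin 2) (ZMod q))) ∧
      (∃ c : ZMod q, ((u * (y * t0 * y⁻¹) : GL (Fin 2) (ZMod q)) : Matrix (Fin 2) (Fin 2) (ZMod q)) =
        c • ((y * t0 * y⁻¹ * u : GL (Fin 2) (ZMod q)) : Matrix (Fin 2) (Fin 2) (ZMod q))) := by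
  set T' : Matrix (Fin 2) (Fin 2) (ZMod q) := ((y * t0 * y⁻¹ : GL (Fin 2) (ZMod q)) : Matrix (Fin 2) (Fin 2) (ZMod q)) with hT'
  have htr : T'.trace = 0 := by
    rw [hT', Units.val_mul, Matrix.trace_mul_comm, ← Units.val_mul, inv_mul_cancel_left, t0_val]
    simp [Matrix.trace, Fin.sum_univ_two]
  have hsq : T' * T' = -1 := by
    rw [hT', ← Units.val_mul]
    have e : y * t0 * y⁻¹ * (y * t0 * y⁻¹) = y * (t0 * t0) * y⁻¹ := by group
    rw [e, Units.val_mul, Units.val_mul, Units.val_mul, t0_sq]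
    rw [mul_neg, neg_mul, mul_one, Units.mul_inv]
  have h11 : T' 1 1 = - T' 0 0 := by
    simp [Matrix.trace, Fin.sum_univ_two] at htr
    linear_combination htr
  have hdet : T' 0 0 ^ 2 + T' 0 1 * T' 1 0 = -1 := by
    have := congrFun (congrFun hsq 0) 0
    simp [Matrix.mul_apply, Fin.sum_univ_two] at this
    linear_combination this
  have hform : T' = !![T' 0 0, T' 0 1; T' 1 0, - T' 0 0] := by
    ext i j
    fin_cases i <;> fin_cases j
    · simp
    · simp
    · simp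
    · simp [h11]
  set p := T' 0 0 with hp
  set r := T' 0 1 with hr
  set s := T' 1 0 with hs
  by_cases hd : (r + s) ^ 2 + (2 * p) ^ 2 = 0
  · obtain ⟨e1, e2⟩ := hns _ _ hd
    have e3 : p = 0 := by
      rcases mul_eq_zero.mp e2 with h | h
      · exact absurd h h2
      · exact h
    have e4 : s = - r := by linear_combination e1
    refine ⟨t0, ?_, ⟨1, by simp⟩, ⟨1, ?_⟩⟩
    · intro h
      rw [← QuotientGroup.mk_one] at h
      obtain ⟨c, hc⟩ := exists_smul_of_mk_eq _ _ h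
      rw [t0_val] at hc
      have := congrFun (congrFun hc 0) 1
      simp at this
    · rw [Units.val_mul, Units.val_mul _ t0, ← hT', hform, e3, e4, t0_val]
      ext i j
      fin_cases i <;> fin_cases j <;> simp [Matrix.mul_apply, Fin.sum_univ_two]
  · set U : Matrix (Fin 2) (Fin 2) (ZMod q) := !![r + s, -(2 * p); -(2 * p), -(r + s)] with hU
    have hUdet : U.det ≠ 0 := by
      rw [hU, Matrix.det_fin_two_of]
      intro h
      apply hd
      linear_combination -h
    have hunit : IsUnit U.det := isUnit_iff_ne_zero.mpr hUdet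
    set u : GL (Fin 2) (ZMod q) := Matrix.nonsingInvUnit U hunit with hu
    have huv : (u : Matrix (Fin 2) (Fin 2) (ZMod q)) = U := rfl
    refine ⟨u, ?_, ⟨-1, ?_⟩, ⟨-1, ?_⟩⟩
    · intro h
      rw [← QuotientGroup.mk_one] at h
      obtain ⟨c, hc⟩ := exists_smul_of_mk_eq _ _ h
      rw [huv, hU] at hc
      have e1 := congrFun (congrFun hc 0) 0
      have e2 := congrFun (congrFun hc 1) 1
      have e3 := congrFun (congrFun hc 0) 1
      simp at e1 e2 e3
      apply hd
      have e4 : 2 * (r + s) = 0 := by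
        rw [two_mul]
        nth_rewrite 1 [e1]
        rw [← e2]
        ring
      have e5 : r + s = 0 := by
        rcases mul_eq_zero.mp e4 with h | h
        · exact absurd h h2
        · exact h
      rw [e5]
      rcases e3 with h | h
      · exact absurd h h2
      · rw [h]; ring
    · rw [Units.val_mul, Units.val_mul, huv, hU, t0_val]
      ext i j
      fin_cases i <;> fin_cases j <;> simp [Matrix.mul_apply, Fin.sum_univ_two]
    · rw [Units.val_mul, Units.val_mul _ u, ← hT', huv, hform, hU]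
      ext i j
      fin_cases i <;> fin_cases j <;> simp [Matrix.mul_apply, Fin.sum_univ_two] <;> ring


/-- Let q = 2^k − 1 ≥ 7 be a prime and let G = PGL(2,q), the general linear group of degree 2 over the field with q elements modulo its centre. Then any two Sylow 2-subgroups of G have a non-trivial intersection: for a Sylow 2-subgroup H and every x ∈ G, H ∩ H^x ≠ 1. -/
theorem result {q k : ℕ} [Fact q.Prime] (hk : q + 1 = 2 ^ k) (hq : 7 ≤ q)
    (H : Sylow 2 (GL (Fin 2) (ZMod q) ⧸ Subgroup.center (GL (Fin 2) (ZMod q))))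
    (x : GL (Fin 2) (ZMod q) ⧸ Subgroup.center (GL (Fin 2) (ZMod q))) :
    (H : Subgroup (GL (Fin 2) (ZMod q) ⧸ Subgroup.center (GL (Fin 2) (ZMod q)))) ⊓ MulAut.conj x • (H : Subgroup _) ≠ ⊥ := by
  have hk3 : 3 ≤ k := by
    by_contra h
    have : k ≤ 2 := by omega
    have := Nat.pow_le_pow_right (show 0 < 2 by norm_num) this
    omega
  obtain ⟨k', rfl⟩ : ∃ k', k = k' + 3 := ⟨k - 3, by omega⟩
  have hpos : 0 < 2 ^ k' := pow_pos (by norm_num) _
  have hpe : 2 ^ (k' + 3) = 8 * 2 ^ k' := by ring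
  set m := 4 * 2 ^ k' - 1 with hm
  have hq2 : q = 2 * m + 1 := by omega
  have hmo : Odd m := by
    refine ⟨2 * 2 ^ k' - 1, ?_⟩
    omega
  have h4 : q % 4 = 3 := by omega
  have h2 : (2 : ZMod q) ≠ 0 := by
    intro h
    have : ((2 : ℕ) : ZMod q) = 0 := by exact_mod_cast h
    rw [ZMod.natCast_eq_zero_iff] at this
    have := Nat.le_of_dvd (by norm_num) this
    omega
  have hns : ∀ a b : ZMod q, a ^ 2 + b ^ 2 = 0 → a = 0 ∧ b = 0 := by
    intro a b hab
    by_cases hb : b = 0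
    · refine ⟨?_, hb⟩
      rw [hb] at hab
      simpa using hab
    · exfalso
      have : (a / b) ^ 2 = -1 := by
        field_simp
        linear_combination hab
      exact ZMod.mod_four_ne_three_of_sq_eq_neg_one this h4
  obtain ⟨H0, hH0⟩ := (two_grp (k' + 3) m hmo hq2 hk).exists_le_sylow
  obtain ⟨g, hg⟩ := MulAction.exists_smul_eq
    (GL (Fin 2) (ZMod q) ⧸ Subgroup.center (GL (Fin 2) (ZMod q))) H0 H
  obtain ⟨y, hy⟩ := QuotientGroup.mk_surjective (g⁻¹ * x * g)
  obtain ⟨u, hu1, ⟨c, hu2⟩, ⟨d, hu3⟩⟩ := common y hns h2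
  have c1 := mk_eq_of_smul _ _ _ hu2
  have c2 := mk_eq_of_smul _ _ _ hu3
  simp only [QuotientGroup.mk_mul, QuotientGroup.mk_inv] at c1 c2
  rw [hy] at c2
  set U := (QuotientGroup.mk u : GL (Fin 2) (ZMod q) ⧸ Subgroup.center (GL (Fin 2) (ZMod q))) with hU
  set T := (QuotientGroup.mk t0 : GL (Fin 2) (ZMod q) ⧸ Subgroup.center (GL (Fin 2) (ZMod q))) with hT
  have m1 : U ∈ (H0 : Subgroup (GL (Fin 2) (ZMod q) ⧸ Subgroup.center (GL (Fin 2) (ZMod q)))) := by
    apply hH0
    rw [Subgroup.mem_centralizer_singleton_iff]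
    first | exact c1 | exact c1.symm
  have m2 : (g⁻¹ * x * g)⁻¹ * U * (g⁻¹ * x * g) ∈
      (H0 : Subgroup (GL (Fin 2) (ZMod q) ⧸ Subgroup.center (GL (Fin 2) (ZMod q)))) := by
    apply hH0
    rw [Subgroup.mem_centralizer_singleton_iff]
    set w := g⁻¹ * x * g with hw
    have e1 : w⁻¹ * U * w * T = w⁻¹ * (U * (w * T * w⁻¹)) * w := by group
    have e2 : T * (w⁻¹ * U * w) = w⁻¹ * ((w * T * w⁻¹) * U) * w := by group
    first
      | rw [e1, e2, c2]
      | rw [e2, e1, c2]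
  have hH : (H : Subgroup (GL (Fin 2) (ZMod q) ⧸ Subgroup.center (GL (Fin 2) (ZMod q)))) =
      MulAut.conj g • (H0 : Subgroup (GL (Fin 2) (ZMod q) ⧸ Subgroup.center (GL (Fin 2) (ZMod q)))) := by
    rw [← hg]; rfl
  intro hbot
  have hmem : g * U * g⁻¹ ∈ (H : Subgroup (GL (Fin 2) (ZMod q) ⧸ Subgroup.center (GL (Fin 2) (ZMod q)))) ⊓
      MulAut.conj x • (H : Subgroup (GL (Fin 2) (ZMod q) ⧸ Subgroup.center (GL (Fin 2) (ZMod q)))) := by
    rw [hH]
    refine Subgroup.mem_inf.mpr ⟨?_, ?_⟩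
    · rw [Subgroup.mem_pointwise_smul_iff_inv_smul_mem, ← map_inv, MulAut.smul_def,
        MulAut.conj_apply]
      have e : g⁻¹ * (g * U * g⁻¹) * g⁻¹⁻¹ = U := by group
      rw [e]
      exact m1
    · rw [Subgroup.mem_pointwise_smul_iff_inv_smul_mem,
        Subgroup.mem_pointwise_smul_iff_inv_smul_mem, ← map_inv, ← map_inv, MulAut.smul_def,
        MulAut.smul_def, MulAut.conj_apply, MulAut.conj_apply]
      have e : g⁻¹ * (x⁻¹ * (g * U * g⁻¹) * x⁻¹⁻¹) * g⁻¹⁻¹ = (g⁻¹ * x * g)⁻¹ * U * (g⁻¹ * x * g) := by group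
      rw [e]
      exact m2
  rw [hbot, Subgroup.mem_bot] at hmem
  apply hu1
  have e : U = g⁻¹ * (g * U * g⁻¹) * g := by group
  rw [e, hmem]
  group

end Cfsg.Agent.S2485
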