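import Cfsg.Statements.S2486
import Cfsg.Agent.LibSylLH13

set_option autoImplicit false
open scoped Pointwise
open Cfsg

namespace Cfsg.Agent.S2486

open CfsgLib.SylL CfsgLib.Unip

/-- pull-back of a subgroup -/
def Phi {G Γ : Type*} [Group G] [Group Γ] (N : Subgroup G) (e : N ≃* Γ) (K : Subgroup Γ) : Subgroup G := (K.comap e.toMonoidHom).map N.subtype

theorem mem_Phi {G Γ : Type*} [Group G] [Group Γ] (N : Subgroup G) (e : N ≃* Γ) (K : Subgroup Γ) (x : G) :
    x ∈ Phi N e K ↔ ∃ h : x ∈ N, e ⟨x, h⟩ ∈ K := by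
  constructor
  · rintro ⟨y, hy, rfl⟩
    exact ⟨y.2, hy⟩
  · rintro ⟨h, hK⟩
    exact ⟨⟨x, h⟩, hK, rfl⟩

theorem Phi_inj {G Γ : Type*} [Group G] [Group Γ] (N : Subgroup G) (e : N ≃* Γ) {K K' : Subgroup Γ} (h : Phi N e K = Phi N e K') : K = K' := by
  ext γ
  have h1 : ∀ K : Subgroup Γ, γ ∈ K ↔ ((e.symm γ : N) : G) ∈ Phi N e K := by
    intro K
    rw [mem_Phi]
    constructor
    · intro h1
      refine ⟨(e.symm γ).2, ?_⟩
      show e (e.symm γ) ∈ K
      rwa [MulEquiv.apply_symm_apply]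
    · rintro ⟨h2, h3⟩
      have h4 : e (e.symm γ) ∈ K := h3
      rwa [MulEquiv.apply_symm_apply] at h4
  rw [h1, h1, h]

theorem Phi_inf {G Γ : Type*} [Group G] [Group Γ] (N : Subgroup G) (e : N ≃* Γ) (K K' : Subgroup Γ) : Phi N e (K ⊓ K') = Phi N e K ⊓ Phi N e K' := by
  ext x
  rw [Subgroup.mem_inf, mem_Phi, mem_Phi, mem_Phi]
  constructor
  · rintro ⟨h, h1, h2⟩
    exact ⟨⟨h, h1⟩, ⟨h, h2⟩⟩
  · rintro ⟨⟨h, h1⟩, ⟨h', h2⟩⟩
    exact ⟨h, h1, h2⟩

theorem Phi_bot {G Γ : Type*} [Group G] [Group Γ] (N : Subgroup G) (e : N ≃* Γ) : Phi N e ⊥ = ⊥ := by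
  ext x
  rw [mem_Phi, Subgroup.mem_bot]
  constructor
  · rintro ⟨h, h1⟩
    rw [Subgroup.mem_bot, map_eq_one_iff e e.injective] at h1
    exact congrArg Subtype.val h1
  · rintro rfl
    exact ⟨N.one_mem, by rw [Subgroup.mem_bot]; exact map_one e⟩

theorem Phi_conj {G Γ : Type*} [Group G] [Group Γ] (N : Subgroup G) (e : N ≃* Γ) (K : Subgroup Γ) (g : G) (hg : g ∈ N) :
    Phi N e (MulAut.conj (e ⟨g, hg⟩) • K) = MulAut.conj g • Phi N e K := by
  ext x
  rw [mem_conj, mem_Phi, mem_Phi]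
  constructor
  · rintro ⟨h, h1⟩
    rw [mem_conj] at h1
    refine ⟨N.mul_mem (N.mul_mem (N.inv_mem hg) h) hg, ?_⟩
    rw [← map_inv, ← map_mul, ← map_mul] at h1
    exact h1
  · rintro ⟨h, h1⟩
    have h2 : x ∈ N := by
      have := N.mul_mem (N.mul_mem hg h) (N.inv_mem hg)
      convert this using 1; group
    refine ⟨h2, ?_⟩
    rw [mem_conj, ← map_inv, ← map_mul, ← map_mul]
    exact h1

theorem exists_gl (n : ℕ) : Nonempty (Matrix.SpecialLinearGroup (Fin n) (ZMod 2) ≃* GL (Fin n) (ZMod 2)) := by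
  refine ⟨MulEquiv.ofBijective (Matrix.SpecialLinearGroup.toGL) ⟨?_, ?_⟩⟩
  · intro a b h
    apply Subtype.ext
    exact congrArg (fun g : GL (Fin n) (ZMod 2) => (g : Matrix (Fin n) (Fin n) (ZMod 2))) h
  · intro g
    have h1 : (g : Matrix (Fin n) (Fin n) (ZMod 2)).det = 1 := by
      have h2 : (g : Matrix (Fin n) (Fin n) (ZMod 2)).det ≠ 0 := by
        intro h0
        have h3 := congrArg Matrix.det g.mul_inv
        rw [Matrix.det_mul, h0, zero_mul, Matrix.det_one] at h3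
        exact zero_ne_one h3
      revert h2
      generalize (g : Matrix (Fin n) (Fin n) (ZMod 2)).det = d
      revert d
      decide
    exact ⟨⟨g, h1⟩, Units.ext rfl⟩

/-- Let n ≥ 4 and let G be a finite group with a normal subgroup N of index 2 isomorphic to SL(n,2) and with trivial centralizer in G (so G is the extension of the simple group L_n(2) by its inverse-transpose automorphism, its full automorphism group). Then any two Sylow 2-subgroups of G have a non-trivial intersection: for a Sylow 2-subgroup H and every x ∈ G, H ∩ H^x ≠ 1. -/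
theorem result {G : Type*} [Group G] [Finite G] {n : ℕ} (hn : 4 ≤ n) (N : Subgroup G) [N.Normal]
    (e : N ≃* Matrix.SpecialLinearGroup (Fin n) (ZMod 2)) (hidx : N.index = 2)
    (hC : Subgroup.centralizer (N : Set G) = ⊥)
    (H : Sylow 2 G) (x : G) :
    (H : Subgroup G) ⊓ MulAut.conj x • (H : Subgroup G) ≠ ⊥ := by
  obtain ⟨e1⟩ := exists_gl n
  let e' : N ≃* GL (Fin n) (ZMod 2) := e.trans e1
  haveI : Fact (Nat.Prime 2) := ⟨Nat.prime_two⟩
  have hF : Fintype.card (ZMod 2) = 2 := rfl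
  have hPN : Phi N e' (Cfsg.upperTriangularGL n (ZMod 2)) ≤ N := by
    intro x hx
    rw [mem_Phi] at hx
    exact hx.1
  have hB : IsPGroup 2 (Cfsg.upperTriangularGL n (ZMod 2)) := IsPGroup.of_card (card_up hF n)
  apply generic N hidx (Phi N e' (Cfsg.upperTriangularGL n (ZMod 2))) hPN
    ((hB.comap_of_injective e'.toMonoidHom e'.injective).map N.subtype) ?_ ?_ ((e'.symm (pm n (ZMod 2) Fin.revPerm) : N) : G) (Subtype.mem _) ?_ H x
  · have h1 : (Phi N e' (Cfsg.upperTriangularGL n (ZMod 2))).subgroupOf N = (Cfsg.upperTriangularGL n (ZMod 2)).comap e'.toMonoidHom := by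
      ext x
      rw [Subgroup.mem_subgroupOf, mem_Phi]
      constructor
      · rintro ⟨_, h⟩; exact h
      · intro h; exact ⟨x.2, h⟩
    rw [Subgroup.relIndex, h1, Subgroup.index_comap_of_surjective _ e'.surjective]
    exact index_up hF n
  · intro g hg h
    rw [← Phi_conj N e' _ g hg] at h
    rw [mem_Phi]
    exact ⟨hg, up_norm (Phi_inj N e' h)⟩
  · intro g hg h
    rw [← Phi_conj N e' _ g hg, ← Phi_inf, ← Phi_bot N e'] at h
    obtain ⟨b, hb, h1⟩ := up_triv (Phi_inj N e' h)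
    refine ⟨(e'.symm b : N), ?_, ?_⟩
    · rw [mem_Phi]
      refine ⟨Subtype.mem _, ?_⟩
      show e' (e'.symm b) ∈ _
      rwa [MulEquiv.apply_symm_apply]
    · rw [← Phi_conj N e' _ g hg, h1]
      have h2 : (e'.symm b : N).1 * (e'.symm (pm n (ZMod 2) Fin.revPerm) : N).1 ∈ N := N.mul_mem (Subtype.mem _) (Subtype.mem _)
      rw [← Phi_conj N e' _ _ h2]
      have h3 : e' ⟨(e'.symm b : N).1 * (e'.symm (pm n (ZMod 2) Fin.revPerm) : N).1, h2⟩ = b * pm n (ZMod 2) Fin.revPerm := by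
        have h4 : (⟨(e'.symm b : N).1 * (e'.symm (pm n (ZMod 2) Fin.revPerm) : N).1, h2⟩ : N) = e'.symm b * e'.symm (pm n (ZMod 2) Fin.revPerm) := rfl
        rw [h4, map_mul, MulEquiv.apply_symm_apply, MulEquiv.apply_symm_apply]
      rw [h3]

end Cfsg.Agent.S2486
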