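import Cfsg.Statements.S2487
import Cfsg.Agent.LibOPl3H13

set_option autoImplicit false
open scoped Pointwise
open Cfsg

namespace Cfsg.Agent.S2487

open CfsgLib.SylL CfsgLib.OPl Module

/-- pointwise stabiliser -/
noncomputable def Pt {F : Type*} [Field F] {m : ℕ} (W : Submodule F (Fin m ⊕ Fin m → F)) : Subgroup (Cfsg.isometryGroup F (Cfsg.quadFormPlus m F)) where
  carrier := {g | ∀ x ∈ W, ac g x = x}
  mul_mem' := by
    intro a b ha hb x hx
    rw [ac_mul, hb x hx, ha x hx]
  one_mem' := fun x _ => ac_one x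
  inv_mem' := by
    intro a ha x hx
    have h1 := ac_inv' a x
    rwa [ha x hx] at h1

/-- Let m ≥ 4 and let G be the full isometry group of the hyperbolic quadratic form x₁y₁ + ⋯ + x_m y_m on the 2m-dimensional space over the field with 2 elements (the orthogonal group O⁺(2m,2), which contains Ω⁺(2m,2) with index 2). Then any two Sylow 2-subgroups of G have a non-trivial intersection: for a Sylow 2-subgroup H and every x ∈ G, H ∩ H^x ≠ 1. -/
theorem result {F : Type*} [Field F] [Fintype F] (hF : Fintype.card F = 2) {m : ℕ} (hm : 4 ≤ m)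
    (H : Sylow 2 (Cfsg.isometryGroup F (Cfsg.quadFormPlus m F)))
    (x : Cfsg.isometryGroup F (Cfsg.quadFormPlus m F)) :
    (H : Subgroup (Cfsg.isometryGroup F (Cfsg.quadFormPlus m F))) ⊓ MulAut.conj x • (H : Subgroup _) ≠ ⊥ := by
  classical
  haveI : Fact (Nat.Prime 2) := ⟨Nat.prime_two⟩
  obtain ⟨W, hWr, hWs, hWH⟩ := exists_sing hF (H : Subgroup (Cfsg.isometryGroup F (Cfsg.quadFormPlus m F))) H.isPGroup' (m - 1) (by omega)
  have hk : finrank F W + 1 = m := by omega
  have hPt : ∀ g, g ∈ Pt W ↔ ∀ x ∈ W, ac g x = x := fun g => Iff.rfl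
  have hK : IsPGroup 2 (Pt W) := by
    intro g
    refine ⟨3, ?_⟩
    apply Subtype.ext
    exact ptwise hF W hWs hk g.1 g.2
  have hKH : Pt W ≤ (H : Subgroup (Cfsg.isometryGroup F (Cfsg.quadFormPlus m F))) := by
    have h1 : (H : Subgroup (Cfsg.isometryGroup F (Cfsg.quadFormPlus m F))) ≤ Subgroup.normalizer (Pt W : Set (Cfsg.isometryGroup F (Cfsg.quadFormPlus m F))) := by
      intro h hh
      rw [Subgroup.mem_normalizer_iff]
      have key : ∀ h ∈ (H : Subgroup (Cfsg.isometryGroup F (Cfsg.quadFormPlus m F))), ∀ g ∈ Pt W, h * g * h⁻¹ ∈ Pt W := by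
        intro h hh g hg x hx
        rw [ac_mul, ac_mul, hg _ (hWH _ (inv_mem hh) x hx), ac_inv]
      intro g
      constructor
      · exact key h hh g
      · intro hg
        have h2 := key h⁻¹ (inv_mem hh) _ hg
        convert h2 using 1
        group
    have h2 := IsPGroup.to_sup_of_normal_right' H.isPGroup' hK h1
    have h3 := H.is_maximal' h2 le_sup_left
    rw [← h3]
    exact le_sup_right
  obtain ⟨W', hW'⟩ : ∃ W', W' = W.map (ac x) := ⟨_, rfl⟩
  have hinj : Function.Injective (ac x) := by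
    intro a b hab
    rw [← ac_inv' x a, hab, ac_inv']
  have hk' : finrank F W' + 1 = m := by
    rw [hW', ← (Submodule.equivMapOfInjective (ac x) hinj W).finrank_eq]
    exact hk
  obtain ⟨g, hg1, hgW, hgW'⟩ := exists_common hF W W' hk hk'
  intro hbot
  apply hg1
  rw [← Subgroup.mem_bot, ← hbot]
  refine ⟨hKH ((hPt g).2 hgW), ?_⟩
  show g ∈ MulAut.conj x • (H : Subgroup (Cfsg.isometryGroup F (Cfsg.quadFormPlus m F)))
  rw [mem_conj]
  apply hKH
  intro y hy
  rw [ac_mul, ac_mul, hgW' _ (by rw [hW']; exact ⟨y, hy, rfl⟩), ac_inv']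

end Cfsg.Agent.S2487
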