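import Cfsg.Statements.S2488
import Cfsg.Agent.S2486
import Cfsg.Agent.LibS6bH13

set_option autoImplicit false
open scoped Pointwise
open Cfsg

namespace Cfsg.Agent.S2488

open Equiv Equiv.Perm CfsgLib.AutAn27

abbrev A6 := alternatingGroup (Fin 6)

theorem card3 : Nat.card {g : A6 // (g : Perm (Fin 6)).cycleType = {3}} = 40 := by
  rw [Nat.card_eq_fintype_card, Fintype.card_subtype, AlternatingGroup.card_of_cycleType]
  decide +kernel

theorem card33 : Nat.card {g : A6 // (g : Perm (Fin 6)).cycleType = {3, 3}} = 40 := by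
  rw [Nat.card_eq_fintype_card, Fintype.card_subtype, AlternatingGroup.card_of_cycleType]
  decide +kernel

theorem outer {α : MulAut A6} (hα : α ∉ (MulAut.conjNormal : Perm (Fin 6) →* MulAut A6).range) (g : A6)
    (hg : (g : Perm (Fin 6)).cycleType = {3}) : (α g : Perm (Fin 6)).cycleType = {3, 3} := by
  have h1 : ∃ g : A6, IsThreeCycle (g : Perm (Fin 6)) ∧ ¬ IsThreeCycle (α g : Perm (Fin 6)) := by
    by_contra hcon
    push Not at hcon
    obtain ⟨σ, hσ⟩ := induced (X := Fin 6) (o := 0) (u := 1) (v := 2) (w := 3) (by decide) (by decide) (by decide) (by decide) (by decide) (by decide) α hcon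
    exact hα ⟨σ, hσ.symm⟩
  obtain ⟨c, hc, hc'⟩ := h1
  have h2 : ¬ IsThreeCycle (α g : Perm (Fin 6)) := by
    intro h
    apply hc'
    have h3 : IsConj g c := alternatingGroup.isThreeCycle_isConj (by rw [Nat.card_eq_fintype_card, Fintype.card_fin]; norm_num) hg hc
    have h4 : IsConj (α g) (α c) := α.toMonoidHom.map_isConj h3
    have h5 : IsConj (α g : Perm (Fin 6)) (α c : Perm (Fin 6)) := (alternatingGroup (Fin 6)).subtype.map_isConj h4
    have h6 := isConj_iff_cycleType_eq.1 h5
    show (α c : Perm (Fin 6)).cycleType = {3}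
    rw [← h6]; exact h
  have ho : orderOf (α g : Perm (Fin 6)) = 3 := by
    have hg3 : IsThreeCycle (g : Perm (Fin 6)) := hg
    rw [Subgroup.orderOf_coe, α.orderOf_eq, ← Subgroup.orderOf_coe, hg3.orderOf]
  obtain ⟨k, hk, hkn, hty⟩ := type_of_order ho
  rw [Fintype.card_fin] at hkn
  have hk1 : k ≠ 1 := by
    rintro rfl
    exact h2 hty
  have hk2 : k = 2 := by omega
  rw [hty, hk2]; rfl

theorem outer_eq {α : MulAut A6} (hα : α ∉ (MulAut.conjNormal : Perm (Fin 6) →* MulAut A6).range) (g : A6)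
    (hg : (g : Perm (Fin 6)).cycleType = {3, 3}) : ∃ c : A6, (c : Perm (Fin 6)).cycleType = {3} ∧ α c = g := by
  let f : {g : A6 // (g : Perm (Fin 6)).cycleType = {3}} → {g : A6 // (g : Perm (Fin 6)).cycleType = {3, 3}} := fun c => ⟨α c.1, outer hα c.1 c.2⟩
  have hf : Function.Injective f := by
    intro a b h
    exact Subtype.ext (α.injective (congrArg Subtype.val h))
  have hb := hf.bijective_of_nat_card_le (by rw [card3, card33])
  obtain ⟨c, hc⟩ := hb.2 ⟨g, hg⟩
  exact ⟨c.1, c.2, congrArg Subtype.val hc⟩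

theorem index_two {α β : MulAut A6} (hα : α ∉ (MulAut.conjNormal : Perm (Fin 6) →* MulAut A6).range)
    (hβ : β ∉ (MulAut.conjNormal : Perm (Fin 6) →* MulAut A6).range) : α * β ∈ (MulAut.conjNormal : Perm (Fin 6) →* MulAut A6).range := by
  have hα' : α⁻¹ ∉ (MulAut.conjNormal : Perm (Fin 6) →* MulAut A6).range := fun h => hα (by simpa using inv_mem h)
  obtain ⟨σ, hσ⟩ := induced (X := Fin 6) (o := 0) (u := 1) (v := 2) (w := 3) (by decide) (by decide) (by decide) (by decide) (by decide) (by decide) (α * β) (by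
    intro g hg
    obtain ⟨c, hc, hc'⟩ := outer_eq hα' (β g) (outer hβ g hg)
    have h1 : (α * β) g = c := by
      rw [MulAut.mul_apply, ← hc', MulAut.apply_inv_self]
    rw [h1]; exact hc)
  exact ⟨σ, hσ.symm⟩

/-- Let G be a finite group with a normal subgroup N of index 4 isomorphic to the alternating group of degree 6 and with trivial centralizer in G (so G is the full automorphism group of A₆). Then any two Sylow 2-subgroups of G have a non-trivial intersection: for a Sylow 2-subgroup H and every x ∈ G, H ∩ H^x ≠ 1. -/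
theorem result {G : Type*} [Group G] [Finite G] (N : Subgroup G) [N.Normal]
    (e : N ≃* alternatingGroup (Fin 6)) (hidx : N.index = 4)
    (hC : Subgroup.centralizer (N : Set G) = ⊥)
    (H : Sylow 2 G) (x : G) :
    (H : Subgroup G) ⊓ MulAut.conj x • (H : Subgroup G) ≠ ⊥ := by
  classical
  haveI : Fact (Nat.Prime 2) := ⟨Nat.prime_two⟩
  let κ : Perm (Fin 6) →* MulAut A6 := MulAut.conjNormal
  have hκ : Function.Injective κ := conjNormal_inj (n := 6) (by norm_num)
  let ρ : G →* MulAut A6 := (MulAut.congr e).toMonoidHom.comp (MulAut.conjNormal : G →* MulAut N)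
  have hρ : Function.Injective ρ := by
    rw [injective_iff_map_eq_one]
    intro g hg
    have h1 : (MulAut.conjNormal : G →* MulAut N) g = 1 := (MulAut.congr e).injective (by rw [map_one]; exact hg)
    rw [← Subgroup.mem_bot, ← hC, Subgroup.mem_centralizer_iff]
    intro n hn
    have h2 := congrArg (fun α : MulAut N => ((α ⟨n, hn⟩ : N) : G)) h1
    have h3 : g * n * g⁻¹ = n := h2
    calc n * g = (g * n * g⁻¹) * g := by rw [h3]
      _ = g * n := by group
  have hA6 : Nat.card A6 = 360 := by
    rw [nat_card_alternatingGroup, Nat.card_eq_fintype_card, Fintype.card_fin]; rfl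
  have hG : Nat.card G = 1440 := by
    rw [← N.card_mul_index, hidx, Nat.card_congr e.toEquiv, hA6]
  have hK : Nat.card κ.range = 720 := by
    rw [← Nat.card_congr (MonoidHom.ofInjective hκ).toEquiv, Nat.card_eq_fintype_card, Fintype.card_perm, Fintype.card_fin]; rfl
  let M : Subgroup G := κ.range.comap ρ
  have hM : ∀ g, g ∈ M ↔ ρ g ∈ κ.range := fun g => Iff.rfl
  let φ : M →* κ.range := (ρ.comp M.subtype).codRestrict κ.range (fun m => m.2)
  have hφ : Function.Injective φ := by
    intro a b h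
    apply Subtype.ext
    apply hρ
    exact congrArg Subtype.val h
  have hMle : Nat.card M ≤ 720 := by
    rw [← hK]
    exact Nat.card_le_card_of_injective φ hφ
  obtain ⟨a, ha⟩ : ∃ a, a ∉ M := by
    by_contra hcon
    push Not at hcon
    have h1 : M = ⊤ := by rw [eq_top_iff]; intro x _; exact hcon x
    rw [h1, Nat.card_congr Subgroup.topEquiv.toEquiv, hG] at hMle
    omega
  have hMi : M.index = 2 := by
    rw [Subgroup.index_eq_two_iff]
    refine ⟨a, fun b => ?_⟩
    by_cases hb : b ∈ M
    · right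
      refine ⟨hb, fun h => ha ?_⟩
      have := M.mul_mem (M.inv_mem hb) h
      rwa [inv_mul_cancel_left] at this
    · left
      refine ⟨?_, hb⟩
      rw [hM, map_mul]
      exact index_two hb ha
  have hMc : Nat.card M = 720 := by
    have h1 := M.card_mul_index
    rw [hMi, hG] at h1
    omega
  haveI : M.Normal := Subgroup.normal_of_index_eq_two hMi
  have hφb : Function.Bijective φ := hφ.bijective_of_nat_card_le (by rw [hMc, hK])
  let e' : M ≃* Perm (Fin 6) := (MulEquiv.ofBijective φ hφb).trans (MonoidHom.ofInjective hκ).symm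
  obtain ⟨w, hw⟩ := CfsgLib.S6.exists_w
  have hPN : S2486.Phi M e' CfsgLib.S6.P0 ≤ M := by
    intro x hx
    rw [S2486.mem_Phi] at hx
    exact hx.1
  apply CfsgLib.SylL.generic M hMi (S2486.Phi M e' CfsgLib.S6.P0) hPN
    ((CfsgLib.S6.isPGroup_P0.comap_of_injective e'.toMonoidHom e'.injective).map M.subtype) ?_ ?_ ((e'.symm w : M) : G) (Subtype.mem _) ?_ H x
  · have h1 : (S2486.Phi M e' CfsgLib.S6.P0).subgroupOf M = CfsgLib.S6.P0.comap e'.toMonoidHom := by
      ext x
      rw [Subgroup.mem_subgroupOf, S2486.mem_Phi]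
      constructor
      · rintro ⟨_, h⟩; exact h
      · intro h; exact ⟨x.2, h⟩
    rw [Subgroup.relIndex, h1, Subgroup.index_comap_of_surjective _ e'.surjective]
    exact CfsgLib.S6.index_P0
  · intro g hg h
    rw [← S2486.Phi_conj M e' _ g hg] at h
    rw [S2486.mem_Phi]
    exact ⟨hg, CfsgLib.S6.norm_P0 (S2486.Phi_inj M e' h)⟩
  · intro g hg h
    rw [← S2486.Phi_conj M e' _ g hg, ← S2486.Phi_inf, ← S2486.Phi_bot M e'] at h
    obtain ⟨b, hb, h1⟩ := CfsgLib.S6.triv_P0 hw (S2486.Phi_inj M e' h)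
    refine ⟨(e'.symm b : M), ?_, ?_⟩
    · rw [S2486.mem_Phi]
      refine ⟨Subtype.mem _, ?_⟩
      show e' (e'.symm b) ∈ _
      rwa [MulEquiv.apply_symm_apply]
    · rw [← S2486.Phi_conj M e' _ g hg, h1]
      have h2 : (e'.symm b : M).1 * (e'.symm w : M).1 ∈ M := M.mul_mem (Subtype.mem _) (Subtype.mem _)
      rw [← S2486.Phi_conj M e' _ _ h2]
      have h3 : e' ⟨(e'.symm b : M).1 * (e'.symm w : M).1, h2⟩ = b * w := by
        have h4 : (⟨(e'.symm b : M).1 * (e'.symm w : M).1, h2⟩ : M) = e'.symm b * e'.symm w := rfl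
        rw [h4, map_mul, MulEquiv.apply_symm_apply, MulEquiv.apply_symm_apply]
      rw [h3]

end Cfsg.Agent.S2488
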