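import Cfsg.Statements.S2490
import Cfsg.Agent.LibH6Te
import Cfsg.Agent.LibCores

set_option autoImplicit false
open Cfsg

namespace Cfsg.Agent.S2490

/-- Let G be a finite group of order 7920 = 2⁴·3²·5·11 (the order of the smallest Mathieu group) and suppose its prime graph (vertices the prime divisors of the order, distinct p, q joined when there is an element of order pq) is disconnected: the prime divisors split into two non-empty parts with no element of order pq for p in one part and q in the other. Then G is simple. -/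
theorem result {G : Type*} [Group G] [Finite G] (hord : Nat.card G = 7920)
    (hdisc : (∃ A : Set ℕ, (∃ a ∈ A, a.Prime ∧ a ∣ Nat.card G) ∧ (∃ b ∉ A, b.Prime ∧ b ∣ Nat.card G) ∧
      ∀ a ∈ A, ∀ b ∉ A, a.Prime → b.Prime → a ∣ Nat.card G → b ∣ Nat.card G → ¬ ∃ g : G, orderOf g = a * b)) :
    IsSimpleGroup G := by
  obtain ⟨A, h1, h2, h3⟩ := hdisc
  haveI : Nontrivial G := by
    rw [← Finite.one_lt_card_iff_nontrivial, hord]; norm_num
  refine { eq_bot_or_eq_top_of_normal := ?_ }
  intro H hH
  by_contra hcon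
  push Not at hcon
  obtain ⟨hH1, hH2⟩ := hcon
  obtain ⟨N, hN, hNH, hN1, hmin⟩ := CfsgLib.Cores.exists_minimal_normal H hH1
  have hN2 : N ≠ ⊤ := by
    intro h
    rw [h] at hNH
    exact hH2 (top_le_iff.1 hNH)
  rw [hord] at h1 h2
  exact CfsgLib.H6T.main hord h1 h2 (fun a ha b hb hap hbp g hg => h3 a ha b hb hap hbp
    ((Dvd.intro _ rfl : a ∣ a * b).trans (hg ▸ orderOf_dvd_natCard g)) ((Dvd.intro_left _ rfl : b ∣ a * b).trans (hg ▸ orderOf_dvd_natCard g)) ⟨g, hg⟩)
    N hN1 hN2 hmin

end Cfsg.Agent.S2490
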