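import Cfsg.Statements.S2495
import Cfsg.Agent.LibFlg6H13
import Cfsg.Agent.LibCycH13
import Cfsg.Agent.LibLEZsig

set_option autoImplicit false
open Cfsg

namespace Cfsg.Agent.S2495

open Module Polynomial

theorem gcd_geom {q m : ℕ} (hq : 2 ≤ q) : Nat.gcd ((q ^ m - 1) / (q - 1)) (q - 1) = Nat.gcd m (q - 1) := by
  rw [← Nat.geomSum_eq hq]
  apply Nat.ModEq.gcd_eq
  have h1 : ∀ i, q ^ i ≡ 1 [MOD (q - 1)] := by
    intro i
    have h2 : q ≡ 1 [MOD (q - 1)] := by
      have h3 : 1 + (q - 1) ≡ 1 [MOD (q - 1)] := Nat.add_modEq_right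
      rwa [show 1 + (q - 1) = q by omega] at h3
    simpa using h2.pow i
  induction m with
  | zero => exact Nat.ModEq.refl _
  | succ m ih =>
    rw [Finset.sum_range_succ]
    exact ih.add (h1 m)

theorem arith {q m : ℕ} (hq : 2 ≤ q) (hm : 1 ≤ m) (hodd : Odd q) :
    (q ^ m + 1 ∣ ((q ^ (2 * m) - 1) / (q - 1)) / Nat.gcd ((q ^ (2 * m) - 1) / (q - 1)) (q - 1)) ↔ padicValNat 2 (q - 1) < padicValNat 2 (2 * m) := by
  have hd1 : q - 1 ∣ q ^ m - 1 := Nat.sub_one_dvd_pow_sub_one q m
  have hq1 : 0 < q - 1 := by omega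
  have hM : (q ^ (2 * m) - 1) / (q - 1) = (q ^ m + 1) * ((q ^ m - 1) / (q - 1)) := by
    have h1 : q ^ (2 * m) - 1 = (q ^ m + 1) * (q ^ m - 1) := by
      have h2 := Nat.sq_sub_sq (q ^ m) 1
      rw [one_pow, ← pow_mul, mul_comm m 2] at h2
      exact h2
    rw [h1, Nat.mul_div_assoc _ hd1]
  have hg := gcd_geom (m := 2 * m) hq
  have hg2 := gcd_geom (m := m) hq
  set D := Nat.gcd ((q ^ (2 * m) - 1) / (q - 1)) (q - 1) with hD
  have hDM : D ∣ (q ^ (2 * m) - 1) / (q - 1) := Nat.gcd_dvd_left _ _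
  rw [Nat.dvd_div_iff_mul_dvd hDM, hM, mul_comm D, Nat.mul_dvd_mul_iff_left (Nat.succ_pos _)]
  have h1 : D ∣ (q ^ m - 1) / (q - 1) ↔ D ∣ m := by
    constructor
    · intro h
      have h2 : D ∣ Nat.gcd ((q ^ m - 1) / (q - 1)) (q - 1) := Nat.dvd_gcd h (Nat.gcd_dvd_right _ _)
      rw [hg2] at h2
      exact h2.trans (Nat.gcd_dvd_left _ _)
    · intro h
      have h2 : D ∣ Nat.gcd m (q - 1) := Nat.dvd_gcd h (Nat.gcd_dvd_right _ _)
      rw [← hg2] at h2
      exact h2.trans (Nat.gcd_dvd_left _ _)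
  rw [h1, hg]
  haveI : Fact (Nat.Prime 2) := ⟨Nat.prime_two⟩
  have hv : padicValNat 2 (2 * m) = padicValNat 2 m + 1 := by
    rw [padicValNat.mul (by norm_num) (by omega), padicValNat.self (by norm_num), add_comm]
  constructor
  · intro h
    by_contra hcon
    push Not at hcon
    have h2 : 2 ^ padicValNat 2 (2 * m) ∣ Nat.gcd (2 * m) (q - 1) :=
      Nat.dvd_gcd pow_padicValNat_dvd ((pow_dvd_pow 2 hcon).trans pow_padicValNat_dvd)
    have h3 := (padicValNat_dvd_iff_le (by omega)).mp (h2.trans h)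
    omega
  · intro h
    have hne : Nat.gcd (2 * m) (q - 1) ≠ 0 := (Nat.gcd_pos_of_pos_left _ (by omega)).ne'
    rw [← Nat.factorization_prime_le_iff_dvd hne (by omega)]
    intro p hp
    by_cases hp2 : p = 2
    · subst hp2
      have h2 : (Nat.gcd (2 * m) (q - 1)).factorization 2 ≤ (q - 1).factorization 2 :=
        (Nat.factorization_le_iff_dvd hne (by omega)).mpr (Nat.gcd_dvd_right _ _) 2
      rw [Nat.factorization_def _ Nat.prime_two] at h2 ⊢
      rw [Nat.factorization_def _ Nat.prime_two] at h2 ⊢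
      omega
    · have h2 : (Nat.gcd (2 * m) (q - 1)).factorization p ≤ (2 * m).factorization p :=
        (Nat.factorization_le_iff_dvd hne (by omega)).mpr (Nat.gcd_dvd_left _ _) p
      rw [Nat.factorization_mul (by norm_num) (by omega), Finsupp.add_apply] at h2
      have h3 : Nat.factorization 2 p = 0 := Nat.factorization_eq_zero_of_not_dvd (fun h4 => hp2 ((Nat.prime_dvd_prime_iff_eq hp Nat.prime_two).mp h4))
      omega

theorem mem_base {F L : Type*} [Field F] [Fintype F] [Field L] [Algebra F L] (y : L) (hy : y ^ (Fintype.card F - 1) = 1) : ∃ c : F, algebraMap F L c = y := by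
  classical
  by_contra hcon
  push Not at hcon
  have hq1 : 1 < Fintype.card F := Fintype.one_lt_card
  set f : L[X] := X ^ Fintype.card F - X with hf
  have hdeg : f.natDegree = Fintype.card F := FiniteField.X_pow_card_sub_X_natDegree_eq L hq1
  have hf0 : f ≠ 0 := FiniteField.X_pow_card_sub_X_ne_zero L hq1
  have hyf : y ∈ f.roots.toFinset := by
    rw [Multiset.mem_toFinset, mem_roots hf0, IsRoot.def, hf, eval_sub, eval_pow, eval_X]
    have : y ^ Fintype.card F = y := by
      rw [← Nat.sub_add_cancel hq1.le, pow_succ, hy, one_mul]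
    rw [this, sub_self]
  have hsub : insert y (Finset.univ.image (algebraMap F L)) ⊆ f.roots.toFinset := by
    intro z hz
    rcases Finset.mem_insert.mp hz with rfl | hz
    · exact hyf
    · obtain ⟨c, -, rfl⟩ := Finset.mem_image.mp hz
      rw [Multiset.mem_toFinset, mem_roots hf0, IsRoot.def, hf, eval_sub, eval_pow, eval_X, ← map_pow, FiniteField.pow_card, sub_self]
  have h1 := Finset.card_le_card hsub
  rw [Finset.card_insert_of_notMem (by
    intro h
    obtain ⟨c, -, hc⟩ := Finset.mem_image.mp h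
    exact hcon c hc), Finset.card_image_of_injective _ (algebraMap F L).injective, Finset.card_univ] at h1
  have h2 := (Multiset.toFinset_card_le f.roots).trans (card_roots' f)
  rw [hdeg] at h2
  omega

theorem lower {F : Type*} [Field F] [Fintype F] {n : ℕ} (hn : 1 ≤ n) :
    ∃ g : Matrix.ProjectiveSpecialLinearGroup (Fin n) F,
      ((Fintype.card F ^ n - 1) / (Fintype.card F - 1)) / Nat.gcd ((Fintype.card F ^ n - 1) / (Fintype.card F - 1)) (Fintype.card F - 1) ∣ orderOf g := by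
  classical
  obtain ⟨p, hp⟩ := CharP.exists F
  haveI : Fact p.Prime := ⟨CharP.char_is_prime F p⟩
  haveI : NeZero n := ⟨by omega⟩
  let L := FiniteField.Extension F p n
  have hL : Nat.card L = Fintype.card F ^ n := by rw [FiniteField.natCard_extension, Nat.card_eq_fintype_card]
  have hfr : finrank F L = n := FiniteField.finrank_extension F p n
  have hLu : Nat.card Lˣ = Fintype.card F ^ n - 1 := by rw [Nat.card_units, hL]
  have hq : 1 < Fintype.card F := Fintype.one_lt_card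
  set q := Fintype.card F with hqd
  set M := (q ^ n - 1) / (q - 1) with hM
  have hdv : q - 1 ∣ q ^ n - 1 := Nat.sub_one_dvd_pow_sub_one q n
  have hMq : M * (q - 1) = q ^ n - 1 := Nat.div_mul_cancel hdv
  have hqn : 1 < q ^ n := Nat.one_lt_pow (by omega) hq
  have hM0 : M ≠ 0 := by
    intro h
    rw [h, zero_mul] at hMq
    omega
  obtain ⟨a, ha⟩ : ∃ a : Lˣ, orderOf a = M := by
    obtain ⟨g, hg⟩ := IsCyclic.exists_ofOrder_eq_natCard (α := Lˣ)
    refine ⟨g ^ (q - 1), ?_⟩
    rw [orderOf_pow_of_dvd (by omega) (by rw [hg, hLu]; exact hdv), hg, hLu]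
  let b : Basis (Fin n) F L := Module.finBasisOfFinrankEq F L hfr
  have hdet : (Algebra.leftMulMatrix b (a : L)).det = 1 := by
    rw [← Algebra.norm_eq_matrix_det b]
    apply (algebraMap F L).injective
    rw [FiniteField.algebraMap_norm_eq_pow, hL, Nat.card_eq_fintype_card, map_one, ← hqd, ← hM, ← Units.val_pow_eq_pow_val, ← ha, pow_orderOf_eq_one]
    rfl
  let A : Matrix.SpecialLinearGroup (Fin n) F := ⟨Algebra.leftMulMatrix b (a : L), hdet⟩
  refine ⟨QuotientGroup.mk A, ?_⟩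
  set k := orderOf (QuotientGroup.mk A : Matrix.ProjectiveSpecialLinearGroup (Fin n) F) with hk
  have h0 : (QuotientGroup.mk A : Matrix.ProjectiveSpecialLinearGroup (Fin n) F) ^ k = 1 := pow_orderOf_eq_one _
  have h1 : (A ^ k) ∈ Subgroup.center (Matrix.SpecialLinearGroup (Fin n) F) := by
    rw [← QuotientGroup.eq_one_iff]
    exact h0
  rw [Matrix.SpecialLinearGroup.mem_center_iff] at h1
  obtain ⟨c, hc, hcA⟩ := h1
  have hc0 : c ≠ 0 := by
    rintro rfl
    rw [Fintype.card_fin, zero_pow (by omega)] at hc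
    exact zero_ne_one hc
  have h2 : (a : L) ^ k = algebraMap F L c := by
    apply Algebra.leftMulMatrix_injective b
    rw [map_pow, AlgHom.commutes, Matrix.algebraMap_eq_diagonal]
    rw [Matrix.SpecialLinearGroup.coe_pow] at hcA
    have h3 : (Algebra.leftMulMatrix b (a : L)) ^ k = Matrix.scalar (Fin n) c := hcA.symm
    rw [h3]
    rfl
  have h3 : a ^ (k * (q - 1)) = 1 := by
    apply Units.ext
    rw [Units.val_pow_eq_pow_val, pow_mul, h2, ← map_pow, FiniteField.pow_card_sub_one_eq_one c hc0, map_one]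
    rfl
  have h4 := orderOf_dvd_of_pow_eq_one h3
  rw [ha] at h4
  have hg0 : 0 < Nat.gcd M (q - 1) := Nat.gcd_pos_of_pos_left _ (Nat.pos_of_ne_zero hM0)
  have h5 : M / Nat.gcd M (q - 1) ∣ k * ((q - 1) / Nat.gcd M (q - 1)) := by
    rw [← Nat.mul_div_assoc _ (Nat.gcd_dvd_right _ _)]
    exact Nat.div_dvd_div (Nat.gcd_dvd_left _ _) h4
  exact (Nat.coprime_div_gcd_div_gcd hg0).dvd_of_dvd_mul_right h5

theorem upper {F : Type*} [Field F] [Fintype F] {m : ℕ} (hm : 2 ≤ m) (hodd : Odd (Fintype.card F)) (g : Matrix.ProjectiveSpecialLinearGroup (Fin (2 * m)) F)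
    (hg : orderOf g = Fintype.card F ^ m + 1) :
      Fintype.card F ^ m + 1 ∣ ((Fintype.card F ^ (2 * m) - 1) / (Fintype.card F - 1)) / Nat.gcd ((Fintype.card F ^ (2 * m) - 1) / (Fintype.card F - 1)) (Fintype.card F - 1) := by
  classical
  have hq : 1 < Fintype.card F := Fintype.one_lt_card
  obtain ⟨p, hp⟩ := CharP.exists F
  haveI : Fact p.Prime := ⟨CharP.char_is_prime F p⟩
  obtain ⟨f, hf0, hcard⟩ := FiniteField.card F p
  obtain ⟨q, hqd⟩ : ∃ q, q = Fintype.card F := ⟨_, rfl⟩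
  rw [← hqd] at hg hodd hq hcard ⊢
  obtain ⟨r, hr, hrd, hrk⟩ := CfsgLib.LEZsig.zsigmondy_gt_two (a := q) (n := 2 * m) hq (by omega) (by
    rintro ⟨h, -⟩
    rw [h] at hodd
    exact absurd hodd (by decide))
  haveI : Fact r.Prime := ⟨hr⟩
  have hrm : ¬ r ∣ q ^ m - 1 := hrk m (by omega) (by omega)
  have hr1 : ¬ r ∣ q - 1 := by
    have := hrk 1 (by omega) (by omega)
    rwa [pow_one] at this
  have hfac : q ^ (2 * m) - 1 = (q ^ m + 1) * (q ^ m - 1) := by
    have h2 := Nat.sq_sub_sq (q ^ m) 1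
    rw [one_pow, ← pow_mul, mul_comm m 2] at h2
    exact h2
  have hrN : r ∣ q ^ m + 1 := by
    rw [hfac, hr.dvd_mul] at hrd
    exact hrd.resolve_right hrm
  have hrq : ¬ r ∣ q := by
    intro h
    have h1 : r ∣ q ^ m := h.trans (dvd_pow_self q (by omega))
    have h2 := (Nat.dvd_add_right h1).mp hrN
    exact hr.one_lt.ne' (Nat.dvd_one.mp h2)
  have hrp : r ≠ p := by
    rintro rfl
    apply hrq
    rw [hcard]
    exact dvd_pow_self r (PNat.ne_zero f)
  have hrF : (r : F) ≠ 0 := CfsgLib.Flg.cast_ne (p := p) hr hrp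
  have hord : orderOf ((Fintype.card F : ℕ) : ZMod r) = finrank F (Fin (2 * m) → F) := by
    rw [Module.finrank_fin_fun, ← hqd]
    have hiff : ∀ k, r ∣ q ^ k - 1 ↔ orderOf (q : ZMod r) ∣ k := by
      intro k
      rw [orderOf_dvd_iff_pow_eq_one, ← ZMod.natCast_eq_zero_iff, Nat.cast_sub (Nat.one_le_pow _ _ (by omega)), Nat.cast_pow, Nat.cast_one, sub_eq_zero]
    have h1 := (hiff _).mp hrd
    have h2 : orderOf (q : ZMod r) ≤ 2 * m := Nat.le_of_dvd (by omega) h1
    have h3 : 0 < orderOf (q : ZMod r) := Nat.pos_of_dvd_of_pos h1 (by omega)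
    by_contra h4
    exact hrk _ h3 (by omega) ((hiff _).mpr dvd_rfl)
  obtain ⟨A, rfl⟩ := QuotientGroup.mk_surjective g
  have hcen : ∀ k, (QuotientGroup.mk A : Matrix.ProjectiveSpecialLinearGroup (Fin (2 * m)) F) ^ k = 1 → (A ^ k) ^ (q - 1) = 1 := by
    intro k hk
    have h1 : (A ^ k) ∈ Subgroup.center (Matrix.SpecialLinearGroup (Fin (2 * m)) F) := by
      rw [← QuotientGroup.eq_one_iff]
      exact hk
    rw [Matrix.SpecialLinearGroup.mem_center_iff] at h1
    obtain ⟨c, hc, hcA⟩ := h1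
    have hc0 : c ≠ 0 := by
      rintro rfl
      rw [Fintype.card_fin, zero_pow (by omega)] at hc
      exact zero_ne_one hc
    apply Subtype.ext
    rw [Matrix.SpecialLinearGroup.coe_pow, ← hcA, ← map_pow, hqd, FiniteField.pow_card_sub_one_eq_one c hc0, map_one]
    rfl
  obtain ⟨t, ht⟩ := hrN
  have hN := hcen (q ^ m + 1) (by rw [← hg]; exact pow_orderOf_eq_one _)
  obtain ⟨R, hR⟩ : ∃ R, R = A ^ (t * (q - 1)) := ⟨_, rfl⟩
  have hRr : R ^ r = 1 := by
    rw [hR, ← pow_mul, show t * (q - 1) * r = (r * t) * (q - 1) by ring, ← ht, pow_mul]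
    exact hN
  have hR1 : R ≠ 1 := by
    intro h
    have h1 : (QuotientGroup.mk A : Matrix.ProjectiveSpecialLinearGroup (Fin (2 * m)) F) ^ (t * (q - 1)) = 1 := by
      rw [← QuotientGroup.mk_pow, ← hR, h]; rfl
    have h2 := orderOf_dvd_of_pow_eq_one h1
    rw [hg, ht, mul_comm r t] at h2
    have ht0 : 0 < t := by
      rcases Nat.eq_zero_or_pos t with h3 | h3
      · rw [h3, mul_zero] at ht; omega
      · exact h3
    exact hr1 (Nat.dvd_of_mul_dvd_mul_left ht0 h2)
  -- pass to endomorphisms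
  obtain ⟨T, hTd⟩ : ∃ T, T = (Matrix.toLinAlgEquiv' (R := F) R.1) := ⟨_, rfl⟩
  obtain ⟨S, hSd⟩ : ∃ S, S = (Matrix.toLinAlgEquiv' (R := F) A.1) := ⟨_, rfl⟩
  have hT : T ^ r = 1 := by
    rw [hTd, ← map_pow]
    have : R.1 ^ r = 1 := congrArg Subtype.val hRr
    rw [this, map_one]
  have hT1 : T ≠ 1 := by
    intro h
    apply hR1
    apply Subtype.ext
    apply (Matrix.toLinAlgEquiv' (R := F) (n := Fin (2 * m))).injective
    rw [← hTd, h]
    exact (map_one _).symm
  have hST : Commute S T := by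
    have h1 : A.1 * R.1 = R.1 * A.1 := by
      have h2 : Commute A R := by rw [hR]; exact (Commute.refl A).pow_right _
      exact congrArg Subtype.val h2.eq
    have h2 := congrArg (Matrix.toLinAlgEquiv' (R := F) (n := Fin (2 * m))) h1
    rw [map_mul, map_mul] at h2
    rw [hSd, hTd]
    exact h2
  obtain ⟨hirr, hdeg⟩ := CfsgLib.Cyc.minpoly_irreducible hr hrF T hT hT1 hord
  haveI : Fact (Irreducible (minpoly F T)) := ⟨hirr⟩
  have hT0 : aeval T (minpoly F T) = 0 := minpoly.aeval F T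
  haveI : Nonempty (Fin (2 * m)) := ⟨⟨0, by omega⟩⟩
  obtain ⟨k, hk⟩ := CfsgLib.Cyc.exists_act T hT0 hirr hdeg hST
  obtain ⟨v, hv⟩ := exists_ne (0 : Fin (2 * m) → F)
  let e : AdjoinRoot (minpoly F T) ≃ₗ[F] (Fin (2 * m) → F) := LinearEquiv.ofBijective
    ((LinearMap.applyₗ v).comp (CfsgLib.Cyc.act T _ hT0).toLinearMap) (CfsgLib.Cyc.eval_bijective T hT0 hirr hdeg hv)
  have he : ∀ x, e x = CfsgLib.Cyc.act T _ hT0 x v := fun x => rfl
  have hnorm : Algebra.norm F k = 1 := by
    rw [Algebra.norm_apply]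
    have h1 : S = (e : _ →ₗ[F] _) ∘ₗ (LinearMap.mul F (AdjoinRoot (minpoly F T)) k) ∘ₗ (e.symm : _ →ₗ[F] _) := by
      apply LinearMap.ext
      intro w
      obtain ⟨x, rfl⟩ := e.surjective w
      show S (e x) = e (k * (e.symm (e x)))
      rw [LinearEquiv.symm_apply_apply, he, he, map_mul, Module.End.mul_apply, hk]
    have h2 : LinearMap.det S = 1 := by
      rw [hSd]
      have : LinearMap.det (Matrix.toLin' A.1) = A.1.det := LinearMap.det_toLin' A.1
      exact this.trans A.2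
    rw [h1, LinearMap.det_conj] at h2
    exact h2
  haveI : FiniteDimensional F (AdjoinRoot (minpoly F T)) := (AdjoinRoot.powerBasis hirr.ne_zero).finite
  haveI : Finite (AdjoinRoot (minpoly F T)) := Module.finite_of_finite F
  have hLc : Nat.card (AdjoinRoot (minpoly F T)) = q ^ (2 * m) := by
    rw [Module.natCard_eq_pow_finrank (K := F), Nat.card_eq_fintype_card, ← hqd, LinearEquiv.finrank_eq e, Module.finrank_fin_fun]
  set M := (q ^ (2 * m) - 1) / (q - 1) with hM
  have hkM : k ^ M = 1 := by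
    have h1 := FiniteField.algebraMap_norm_eq_pow (K := F) (x := k)
    rw [hnorm, map_one, hLc, Nat.card_eq_fintype_card, ← hqd] at h1
    exact h1.symm
  set D := Nat.gcd M (q - 1) with hD
  have hDM : D ∣ M := Nat.gcd_dvd_left _ _
  have hDq : D ∣ q - 1 := Nat.gcd_dvd_right _ _
  have h1 : (k ^ (M / D)) ^ (Fintype.card F - 1) = 1 := by
    rw [← hqd, ← pow_mul]
    have h2 : M / D * (q - 1) = M * ((q - 1) / D) := by
      rw [Nat.div_mul_right_comm hDM, ← Nat.mul_div_assoc _ hDq]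
    rw [h2, pow_mul, hkM, one_pow]
  obtain ⟨c, hc⟩ := mem_base _ h1
  rw [← hg]
  apply orderOf_dvd_of_pow_eq_one
  rw [← QuotientGroup.mk_pow, QuotientGroup.eq_one_iff, Subgroup.mem_center_iff]
  intro B
  have h3 : A.1 ^ (M / D) = Matrix.scalar (Fin (2 * m)) c := by
    apply (Matrix.toLinAlgEquiv' (R := F) (n := Fin (2 * m))).injective
    rw [map_pow, ← hSd, hk, ← map_pow, ← hc, AlgHom.commutes]
    have h4 : Matrix.scalar (Fin (2 * m)) c = algebraMap F (Matrix (Fin (2 * m)) (Fin (2 * m)) F) c := by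
      rw [Matrix.algebraMap_eq_diagonal]; rfl
    rw [h4]
    exact ((Matrix.toLinAlgEquiv' (R := F) (n := Fin (2 * m))).commutes c).symm
  apply Subtype.ext
  show B.1 * (A ^ (M / D)).1 = (A ^ (M / D)).1 * B.1
  rw [Matrix.SpecialLinearGroup.coe_pow, h3]
  exact ((Matrix.scalar_commute c (fun r => Commute.all _ _) B.1).eq).symm

/-- Let q be an odd prime power, n ≥ 4 even, and L = PSL(n,q). Then L has an element of order q^(n/2) + 1 if and only if the 2-part of n exceeds the 2-part of q − 1. -/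
theorem result {F : Type*} [Field F] [Fintype F] {q : ℕ} (hF : Fintype.card F = q) (hodd : Odd q)
    {n : ℕ} (hn : 4 ≤ n) (heven : Even n) :
    (∃ g : Matrix.ProjectiveSpecialLinearGroup (Fin n) F, orderOf g = q ^ (n / 2) + 1) ↔
      padicValNat 2 (q - 1) < padicValNat 2 n := by
  subst hF
  obtain ⟨m, rfl⟩ : ∃ m, n = 2 * m := by
    obtain ⟨m, hm⟩ := heven
    exact ⟨m, by omega⟩
  have hq : 1 < Fintype.card F := Fintype.one_lt_card
  rw [Nat.mul_div_cancel_left m two_pos, ← arith (q := Fintype.card F) (m := m) (by omega) (by omega) hodd]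
  constructor
  · rintro ⟨g, hg⟩
    exact upper (by omega) hodd g hg
  · intro h
    obtain ⟨g, hg⟩ := lower (F := F) (n := 2 * m) (by omega)
    obtain ⟨t, ht⟩ := h.trans hg
    have hg0 : 0 < orderOf g := orderOf_pos g
    have ht0 : t ≠ 0 := by
      rintro rfl
      rw [mul_zero] at ht; omega
    refine ⟨g ^ t, ?_⟩
    rw [orderOf_pow_of_dvd ht0 (by rw [ht]; exact Dvd.intro_left _ rfl), ht]
    exact Nat.mul_div_cancel _ (Nat.pos_of_ne_zero ht0)

end Cfsg.Agent.S2495
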