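import Cfsg.Statements.S2496
import Cfsg.Agent.S2495
import Cfsg.Agent.LibPsuH13
import Cfsg.Agent.LibH22HermS
import Cfsg.Agent.LibH22HermO
import Cfsg.Agent.LibH22Fin

set_option autoImplicit false
open Cfsg

namespace Cfsg.Agent.S2496

open Module Polynomial

theorem scalar_norm {F : Type*} [Field F] [Fintype F] {n q : ℕ} (hn : 1 ≤ n) {σ : F →+* F} (hσ : ∀ x, σ x = x ^ q) (A : Cfsg.SU n F q) {μ : F}
    (h : A.1.1 = Matrix.scalar (Fin n) μ) : μ ^ (q + 1) = 1 := by
  have hU := (Cfsg.Agent.H22.mem_SU_iff hσ A.1).1 A.2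
  rw [h] at hU
  have h3 := congrFun (congrFun hU ⟨0, hn⟩) ⟨0, hn⟩
  rw [Matrix.scalar_apply, Matrix.diagonal_transpose, Matrix.diagonal_map (map_zero σ), Matrix.diagonal_mul_diagonal, Matrix.diagonal_apply_eq, Matrix.one_apply_eq] at h3
  rw [pow_succ', ← hσ]
  exact h3

theorem coe_pow {F : Type*} [Field F] {n q : ℕ} (A : Cfsg.SU n F q) (k : ℕ) : (A ^ k).1.1 = A.1.1 ^ k := by
  have h : (A ^ k).1 = A.1 ^ k := rfl
  rw [h, Matrix.SpecialLinearGroup.coe_pow]

theorem central_of_scalar {F : Type*} [Field F] {n q : ℕ} (A : Cfsg.SU n F q) {μ : F}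
    (h : A.1.1 = Matrix.scalar (Fin n) μ) : A ∈ Subgroup.center (Cfsg.SU n F q) := by
  rw [Subgroup.mem_center_iff]
  intro B
  apply Subtype.ext
  apply Subtype.ext
  show B.1.1 * A.1.1 = A.1.1 * B.1.1
  rw [h]
  exact ((Matrix.scalar_commute μ (fun r => Commute.all _ _) B.1.1).eq).symm

theorem norm_act {F V : Type*} [Field F] [Fintype F] [AddCommGroup V] [Module F V] [FiniteDimensional F V] [Nontrivial V] (T : End F V) {μ : F[X]}
    (h0 : aeval T μ = 0) (hirr : Irreducible μ) (hdeg : μ.natDegree = finrank F V) (k : AdjoinRoot μ) :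
    Algebra.norm F k = LinearMap.det (CfsgLib.Cyc.act T μ h0 k) := by
  obtain ⟨v, hv⟩ := exists_ne (0 : V)
  let e : AdjoinRoot μ ≃ₗ[F] V := LinearEquiv.ofBijective
    ((LinearMap.applyₗ v).comp (CfsgLib.Cyc.act T _ h0).toLinearMap) (CfsgLib.Cyc.eval_bijective T h0 hirr hdeg hv)
  have he : ∀ x, e x = CfsgLib.Cyc.act T _ h0 x v := fun x => rfl
  rw [Algebra.norm_apply]
  have h1 : CfsgLib.Cyc.act T μ h0 k = (e : _ →ₗ[F] _) ∘ₗ (LinearMap.mul F (AdjoinRoot μ) k) ∘ₗ (e.symm : _ →ₗ[F] _) := by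
    apply LinearMap.ext
    intro w
    obtain ⟨x, rfl⟩ := e.surjective w
    show CfsgLib.Cyc.act T μ h0 k (e x) = e (k * (e.symm (e x)))
    rw [LinearEquiv.symm_apply_apply, he, he, map_mul, Module.End.mul_apply]
  rw [h1, LinearMap.det_conj]
  rfl

theorem pow_p {F : Type*} [Field F] {n : ℕ} (A : Matrix (Fin n) (Fin n) F) (c : F) (h : (A - Matrix.scalar (Fin n) c) ^ 2 = 0) {p : ℕ} (hp : (p : F) = 0) (hp1 : 1 ≤ p) :
    A ^ p = Matrix.scalar (Fin n) (c ^ p) := by
  obtain ⟨N, hN⟩ : ∃ N, N = A - Matrix.scalar (Fin n) c := ⟨_, rfl⟩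
  rw [← hN] at h
  have hA : A = Matrix.scalar (Fin n) c + N := by rw [hN]; abel
  have hc : Commute (Matrix.scalar (Fin n) c) N := Matrix.scalar_commute c (fun r => Commute.all _ _) N
  have key : ∀ k, (Matrix.scalar (Fin n) c + N) ^ (k + 1) = Matrix.scalar (Fin n) (c ^ (k + 1)) + ((k + 1 : ℕ) : F) • (Matrix.scalar (Fin n) (c ^ k) * N) := by
    intro k
    induction k with
    | zero => simp
    | succ k ih =>
      have hc2 : Commute (Matrix.scalar (Fin n) (c ^ k)) N := Matrix.scalar_commute _ (fun r => Commute.all _ _) N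
      rw [pow_succ, ih, add_mul, mul_add, mul_add, ← map_mul, ← pow_succ, smul_mul_assoc, smul_mul_assoc, mul_assoc, mul_assoc, ← pow_two, h, mul_zero, smul_zero, add_zero,
        ← hc.eq, ← mul_assoc, ← map_mul, ← pow_succ, add_assoc]
      congr 1
      nth_rewrite 1 [← one_smul F (Matrix.scalar (Fin n) (c ^ (k + 1)) * N)]
      rw [← add_smul]
      congr 1
      push_cast
      ring
  obtain ⟨k, rfl⟩ : ∃ k, p = k + 1 := ⟨p - 1, by omega⟩
  rw [hA, key, hp, zero_smul, add_zero]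

theorem upper {F : Type*} [Field F] [Fintype F] {q m : ℕ} (hF : Fintype.card F = q ^ 2) (hodd : Odd q) (hm : 2 ≤ m)
    (g : Cfsg.PSU (m + m) F q) (hg : orderOf g = if Even m then q ^ m + 1 else q ^ m - 1) :
    (if Even m then q ^ m + 1 else q ^ m - 1) ∣ ((q ^ (2 * m) - 1) / (q + 1)) / Nat.gcd ((q ^ (2 * m) - 1) / (q + 1)) (q + 1) := by
  classical
  have hF1 : 1 < Fintype.card F := Fintype.one_lt_card
  have hq : 1 < q := by
    by_contra hcon
    have : q ^ 2 ≤ 1 := by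
      have : q ≤ 1 := by omega
      nlinarith
    omega
  obtain ⟨p, hp⟩ := CharP.exists F
  haveI : Fact p.Prime := ⟨CharP.char_is_prime F p⟩
  have hpp : p.Prime := Fact.out
  obtain ⟨f, hf0, hcard⟩ := FiniteField.card F p
  obtain ⟨a, ha⟩ : ∃ a, q = p ^ a := by
    have hdvd : q ∣ p ^ (f : ℕ) := by rw [← hcard, hF]; exact ⟨q, pow_two q⟩
    obtain ⟨k, _, hk⟩ := (Nat.dvd_prime_pow hpp).1 hdvd
    exact ⟨k, hk⟩
  have ha0 : a ≠ 0 := by
    rintro rfl
    rw [pow_zero] at ha; omega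
  have hσ : ∀ x, (iterateFrobenius F p a) x = x ^ q := by
    intro x; rw [iterateFrobenius_def, ha]
  obtain ⟨r, hr, hrN, hrq, hord, hj⟩ := CfsgLib.Psu.zsig hq hodd hm
  haveI : Fact r.Prime := ⟨hr⟩
  obtain ⟨N, hN⟩ : ∃ N, N = (if Even m then q ^ m + 1 else q ^ m - 1) := ⟨_, rfl⟩
  rw [← hN] at hg hrN ⊢
  have hqm : 1 < q ^ m := Nat.one_lt_pow (by omega) hq
  have hpqm : p ∣ q ^ m := by
    rw [ha, ← pow_mul]
    exact dvd_pow_self p (Nat.mul_ne_zero ha0 (by omega))
  have hNp : Nat.Coprime N p := by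
    rw [Nat.coprime_comm, Nat.Prime.coprime_iff_not_dvd hpp]
    intro h
    have h1 : p ∣ 1 := by
      rw [hN] at h
      split_ifs at h with he
      · exact (Nat.dvd_add_right hpqm).mp h
      · exact (Nat.dvd_sub_iff_right hqm.le hpqm).mp h
    exact hpp.one_lt.ne' (Nat.dvd_one.mp h1)
  have hN0 : 0 < N := by
    rw [hN]; split_ifs <;> omega
  have hrp : r ≠ p := by
    rintro rfl
    apply hrq
    rw [ha]
    exact dvd_pow_self r ha0
  have hrF : (r : F) ≠ 0 := CfsgLib.Flg.cast_ne (p := p) hr hrp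
  obtain ⟨A, rfl⟩ := QuotientGroup.mk_surjective g
  have hcen : ∀ k, (QuotientGroup.mk A : Cfsg.PSU (m + m) F q) ^ k = 1 → ∃ μ : F, μ ^ (q + 1) = 1 ∧ A.1.1 ^ k = Matrix.scalar (Fin (m + m)) μ := by
    intro k hk
    have h1 : (A ^ k) ∈ Subgroup.center (Cfsg.SU (m + m) F q) := by
      rw [← QuotientGroup.eq_one_iff]
      exact hk
    obtain ⟨μ, hμ⟩ := Cfsg.Agent.H22.center_SU_scalar hF (by omega) h1
    exact ⟨μ, scalar_norm (by omega) hσ (A ^ k) hμ, by rw [← coe_pow]; exact hμ⟩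
  obtain ⟨t, ht⟩ := hrN
  have ht0 : 0 < t := by
    rcases Nat.eq_zero_or_pos t with h3 | h3
    · rw [h3, mul_zero] at ht; omega
    · exact h3
  obtain ⟨Am, hAm⟩ : ∃ Am, Am = A.1.1 := ⟨_, rfl⟩
  obtain ⟨Rm, hRm⟩ : ∃ Rm, Rm = Am ^ (t * (q + 1)) := ⟨_, rfl⟩
  have hRr : Rm ^ r = 1 := by
    obtain ⟨μ, hμ, hμA⟩ := hcen N (by rw [← hg]; exact pow_orderOf_eq_one _)
    rw [← hAm] at hμA
    rw [hRm, ← pow_mul, show t * (q + 1) * r = (r * t) * (q + 1) by ring, ← ht, pow_mul, hμA, ← map_pow, hμ, map_one]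
  have hR1 : Rm ≠ 1 := by
    intro h
    have h0 : A ^ (t * (q + 1)) = 1 := by
      apply Subtype.ext
      apply Subtype.ext
      rw [coe_pow, ← hAm, ← hRm, h]; rfl
    have h1 : (QuotientGroup.mk A : Cfsg.PSU (m + m) F q) ^ (t * (q + 1)) = 1 := by
      rw [← QuotientGroup.mk_pow, h0]; rfl
    have h2 := orderOf_dvd_of_pow_eq_one h1
    rw [hg, ht, mul_comm r t] at h2
    apply hj 0
    rw [pow_zero, mul_one]
    exact Nat.dvd_of_mul_dvd_mul_left ht0 h2
  have hunit : ∀ k, (Am ^ k).transpose * (Am ^ k).map (iterateFrobenius F p a) = 1 := by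
    intro k
    rw [hAm, ← coe_pow]
    exact (Cfsg.Agent.H22.mem_SU_iff hσ (A ^ k).1).1 (A ^ k).2
  have hdetk : ∀ k, (Am ^ k).det = 1 := by
    intro k
    rw [hAm, ← coe_pow]
    exact (A ^ k).1.2
  -- endomorphisms
  obtain ⟨S, hS⟩ : ∃ S, S = Matrix.toLin' Am := ⟨_, rfl⟩
  obtain ⟨T, hT⟩ : ∃ T, T = Matrix.toLin' Rm := ⟨_, rfl⟩
  have hTS : T = S ^ (t * (q + 1)) := by rw [hT, hS, hRm, Matrix.toLin'_pow]
  have hTr : T ^ r = 1 := by
    rw [hT, ← Matrix.toLin'_pow, hRr, Matrix.toLin'_one]; rfl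
  have hT1 : T ≠ 1 := by
    intro h
    apply hR1
    apply (Matrix.toLin' (R := F) (m := Fin (m + m)) (n := Fin (m + m))).injective
    rw [← hT, h, Matrix.toLin'_one]; rfl
  have hST : Commute S T := by rw [hTS]; exact (Commute.refl S).pow_right _
  have hTB : ∀ x y, CfsgLib.Psu.BB (iterateFrobenius F p a) (T x) (T y) = CfsgLib.Psu.BB (iterateFrobenius F p a) x y := by
    intro x y
    rw [hT, Matrix.toLin'_apply, Matrix.toLin'_apply]
    exact CfsgLib.Psu.BB_mulVec _ Rm (by rw [hRm]; exact hunit _) x y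
  -- an irreducible factor
  have hkr := CfsgLib.Flg.ker_inf_range hrF T hTr
  have hrange_inv : ∀ x ∈ LinearMap.range (T - 1), T x ∈ LinearMap.range (T - 1) := by
    rintro x ⟨y, rfl⟩
    refine ⟨T y, ?_⟩
    simp only [LinearMap.sub_apply, Module.End.one_apply, map_sub]
  have hrange0 : 0 < finrank F (LinearMap.range (T - 1)) := by
    rw [Module.finrank_pos_iff, Submodule.nontrivial_iff_ne_bot]
    intro h
    rw [LinearMap.range_eq_bot, sub_eq_zero] at h
    exact hT1 h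
  have hex : ∃ k, ∃ W : Submodule F (Fin (m + m) → F), W ≤ LinearMap.range (T - 1) ∧ (∀ x ∈ W, T x ∈ W) ∧ finrank F W = k ∧ 0 < k :=
    ⟨_, _, le_rfl, hrange_inv, rfl, hrange0⟩
  obtain ⟨W, hWr, hWT, hWk, hWpos⟩ := Nat.find_spec hex
  have hWmin := fun k hk => Nat.find_min hex (m := k) hk
  obtain ⟨φ, hφ, hφW⟩ := CfsgLib.Homg.exists_irred' T W hWT (by
    intro Y hY hYT
    rcases Nat.eq_zero_or_pos (finrank F Y) with h0 | h0
    · rw [h0]; exact dvd_zero _
    · have h1 : finrank F Y ≤ finrank F W := Submodule.finrank_mono hY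
      have h2 : ¬ finrank F Y < Nat.find hex := by
        intro h
        exact hWmin _ h ⟨Y, hY.trans hWr, hYT, rfl, h0⟩
      have h3 : finrank F Y = finrank F W := by omega
      rw [h3]) (by rw [hWk]; exact hWpos)
  obtain ⟨U, hU⟩ : ∃ U, U = LinearMap.ker (aeval T φ) := ⟨_, rfl⟩
  have hWU : W ≤ U := by
    intro x hx
    rw [hU, LinearMap.mem_ker]
    exact hφW x hx
  have hU0 : 0 < finrank F U := lt_of_lt_of_le (by rw [hWk]; exact hWpos) (Submodule.finrank_mono hWU)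
  have hX1 : ∀ x, aeval T (X - 1 : F[X]) x = (T - 1) x := by
    intro x; rw [map_sub, aeval_X, map_one]
  have hcop : IsCoprime φ (X - 1) := by
    rw [hφ.coprime_iff_not_dvd]
    rintro ⟨u, hu⟩
    have h1 : W ≤ ⊥ := by
      rw [← hkr]
      intro x hx
      refine ⟨hWr hx, ?_⟩
      show x ∈ LinearMap.ker (T - 1)
      rw [LinearMap.mem_ker, ← hX1, hu, mul_comm, map_mul, Module.End.mul_apply, hφW x hx, map_zero]
    rw [le_bot_iff] at h1
    rw [h1, finrank_bot] at hWk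
    omega
  have hUr : U ≤ LinearMap.range (T - 1) := by
    obtain ⟨u, v, huv⟩ := hcop
    intro x hx
    rw [hU, LinearMap.mem_ker] at hx
    have h2 : aeval T (u * φ + v * (X - 1)) x = x := by rw [huv, map_one]; rfl
    rw [map_add, LinearMap.add_apply, map_mul, Module.End.mul_apply, hx, map_zero, zero_add, mul_comm v, map_mul, Module.End.mul_apply, hX1] at h2
    exact ⟨_, h2⟩
  have hU1 : U ⊓ LinearMap.ker (T - 1) = ⊥ := by
    rw [eq_bot_iff, ← hkr]
    exact inf_le_inf_right _ hUr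
  have hUT : ∀ x ∈ U, T x ∈ U := by
    intro x hx
    rw [hU, LinearMap.mem_ker] at hx ⊢
    have h1 := CfsgLib.Homg.aeval_comm T T (Commute.refl T) φ
    rw [← Module.End.mul_apply, h1.eq, Module.End.mul_apply, hx, map_zero]
  have hUS : ∀ x ∈ U, S x ∈ U := by
    intro x hx
    rw [hU, LinearMap.mem_ker] at hx ⊢
    have h1 := CfsgLib.Homg.aeval_comm T S hST.symm φ
    rw [← Module.End.mul_apply, h1.eq, Module.End.mul_apply, hx, map_zero]
  have hiso : ∀ x ∈ U, ∀ y ∈ U, CfsgLib.Psu.BB (iterateFrobenius F p a) x y = 0 := by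
    rw [hU]
    apply CfsgLib.Psu.isotropic a T hTB hr hTr hφ (by rw [← hU]; exact hU0) (by rw [← hU]; exact hU1)
    intro j
    rw [← ha, hF]
    exact hj j
  have hV : finrank F (Fin (m + m) → F) = m + m := Module.finrank_fin_fun F
  have hUm : finrank F U = m := by
    have h1 := CfsgLib.Flg.dvd_finrank hr hrF T hTr U hUT hUr
    rw [hF, hord] at h1
    have h2 : finrank F U ≤ m + m := (Submodule.finrank_le U).trans hV.le
    have h3 : finrank F U ≠ m + m := by
      intro h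
      have h4 : U = ⊤ := Submodule.eq_top_of_finrank_eq (by rw [h, hV])
      have h5 := hiso (Pi.single ⟨0, by omega⟩ 1) (by rw [h4]; trivial) (Pi.single ⟨0, by omega⟩ 1) (by rw [h4]; trivial)
      unfold CfsgLib.Psu.BB at h5
      rw [single_dotProduct, Pi.single_eq_same, map_one, mul_one] at h5
      exact one_ne_zero h5
    obtain ⟨c, hc⟩ := h1
    have hc0 : c ≠ 0 := by
      rintro rfl
      rw [mul_zero] at hc; omega
    have hc2 : c < 2 := by
      by_contra hcon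
      have : m * 2 ≤ m * c := Nat.mul_le_mul_left m (by omega)
      omega
    have hc1 : c = 1 := by omega
    rw [hc, hc1, mul_one]
  haveI : Nontrivial U := Module.nontrivial_of_finrank_pos hU0
  obtain ⟨T', hT'⟩ : ∃ T', T' = T.restrict hUT := ⟨_, rfl⟩
  obtain ⟨S', hS'⟩ : ∃ S', S' = S.restrict hUS := ⟨_, rfl⟩
  have hS'v : ∀ x : U, ((S' x : U) : Fin (m + m) → F) = S x := by intro x; rw [hS']; rfl
  have hT'v : ∀ x : U, ((T' x : U) : Fin (m + m) → F) = T x := by intro x; rw [hT']; rfl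
  have hS'p : ∀ (k : ℕ) (x : U), (((S' ^ k) x : U) : Fin (m + m) → F) = (S ^ k) (x : Fin (m + m) → F) := by
    intro k
    induction k with
    | zero => intro x; rfl
    | succ k ih => intro x; rw [pow_succ, pow_succ, Module.End.mul_apply, Module.End.mul_apply, ih, hS'v]
  have hT'S' : T' = S' ^ (t * (q + 1)) := by
    apply LinearMap.ext
    intro x
    apply Subtype.ext
    rw [hS'p, hT'v, hTS]
  have hS'r : S' ^ (t * (q + 1) * r) = 1 := by
    apply LinearMap.ext
    intro x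
    apply Subtype.ext
    rw [hS'p, pow_mul, ← hTS, hTr]; rfl
  have hT'r : T' ^ r = 1 := by rw [hT'S', ← pow_mul, hS'r]
  have hT'1 : T' ≠ 1 := by
    intro h
    have h1 : U ≤ ⊥ := by
      rw [← hU1]
      intro x hx
      refine ⟨hx, ?_⟩
      show x ∈ LinearMap.ker (T - 1)
      rw [LinearMap.mem_ker, LinearMap.sub_apply, Module.End.one_apply, sub_eq_zero]
      have h2 := hT'v ⟨x, hx⟩
      rw [h] at h2
      exact h2.symm
    rw [le_bot_iff] at h1
    rw [h1, finrank_bot] at hU0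
    omega
  have hS'T' : Commute S' T' := by rw [hT'S']; exact (Commute.refl S').pow_right _
  obtain ⟨hirr, hdeg⟩ := CfsgLib.Cyc.minpoly_irreducible hr hrF T' hT'r hT'1 (by rw [hUm, hF, hord])
  haveI : Fact (Irreducible (minpoly F T')) := ⟨hirr⟩
  have hT0 : aeval T' (minpoly F T') = 0 := minpoly.aeval F T'
  obtain ⟨k, hk⟩ := CfsgLib.Cyc.exists_act T' hT0 hirr hdeg hS'T'
  have hnorm := norm_act T' hT0 hirr hdeg k
  rw [← hk] at hnorm
  haveI : FiniteDimensional F (AdjoinRoot (minpoly F T')) := (AdjoinRoot.powerBasis hirr.ne_zero).finite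
  haveI : Finite (AdjoinRoot (minpoly F T')) := Module.finite_of_finite F
  have hLc : Nat.card (AdjoinRoot (minpoly F T')) = q ^ (2 * m) := by
    rw [Module.natCard_eq_pow_finrank (K := F), Nat.card_eq_fintype_card, (AdjoinRoot.powerBasis hirr.ne_zero).finrank, AdjoinRoot.powerBasis_dim, hdeg, hUm, hF, ← pow_mul]
  have hdetS : (LinearMap.det S') ^ q = LinearMap.det S' := by
    rw [← hσ]
    have h1 := (CfsgLib.Psu.block (iterateFrobenius F p a) U hUm hiso Am (by have := hunit 1; rwa [pow_one] at this)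
      (by have := hdetk 1; rwa [pow_one] at this) (by rw [← hS]; exact hUS)).1
    have h2 : S' = (Matrix.toLin' Am).restrict (by rw [← hS]; exact hUS) := by
      apply LinearMap.ext
      intro x
      apply Subtype.ext
      have h3 : S (x : Fin (m + m) → F) = Matrix.toLin' Am (x : Fin (m + m) → F) := by rw [hS]
      exact (hS'v x).trans h3
    rw [h2]
    exact h1
  have hdetS0 : LinearMap.det S' ≠ 0 := by
    intro h0
    have h1 := congrArg LinearMap.det hS'r
    rw [map_pow, h0, map_one, zero_pow (Nat.mul_ne_zero (Nat.mul_ne_zero (by omega) (by omega)) hr.ne_zero)] at h1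
    exact zero_ne_one h1
  have hν : (LinearMap.det S') ^ (q - 1) = 1 := by
    apply mul_right_cancel₀ hdetS0
    rw [← pow_succ, Nat.sub_add_cancel hq.le, hdetS, one_mul]
  obtain ⟨L, hL⟩ : ∃ L, L = (q ^ (2 * m) - 1) / (q ^ 2 - 1) := ⟨_, rfl⟩
  have hq2 : q ^ 2 - 1 = (q + 1) * (q - 1) := by
    have h2 := Nat.sq_sub_sq q 1
    rwa [one_pow] at h2
  have hdv : q ^ 2 - 1 ∣ q ^ (2 * m) - 1 := by
    rw [pow_mul]; exact Nat.sub_one_dvd_pow_sub_one (q ^ 2) m
  have hLq : L * (q ^ 2 - 1) = q ^ (2 * m) - 1 := by rw [hL]; exact Nat.div_mul_cancel hdv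
  obtain ⟨M, hM⟩ : ∃ M, M = (q ^ (2 * m) - 1) / (q + 1) := ⟨_, rfl⟩
  have hML : M = L * (q - 1) := by
    rw [hM, ← hLq, hq2, mul_comm (q + 1), ← mul_assoc, Nat.mul_div_cancel _ (Nat.succ_pos q)]
  have hkM : k ^ M = 1 := by
    have h1 := FiniteField.algebraMap_norm_eq_pow (K := F) (x := k)
    rw [hnorm, hLc, Nat.card_eq_fintype_card, hF, ← hL] at h1
    rw [hML, pow_mul, ← h1, ← map_pow, hν, map_one]
  rw [← hM]
  obtain ⟨D, hD⟩ : ∃ D, D = Nat.gcd M (q + 1) := ⟨_, rfl⟩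
  rw [← hD]
  have hDM : D ∣ M := hD ▸ Nat.gcd_dvd_left _ _
  have hDq : D ∣ q + 1 := hD ▸ Nat.gcd_dvd_right _ _
  have h1 : (k ^ (M / D)) ^ (q + 1) = 1 := by
    rw [← pow_mul]
    have h2 : M / D * (q + 1) = M * ((q + 1) / D) := by
      rw [Nat.div_mul_right_comm hDM, ← Nat.mul_div_assoc _ hDq]
    rw [h2, pow_mul, hkM, one_pow]
  obtain ⟨c, hc⟩ := S2495.mem_base (k ^ (M / D)) (by rw [hF, hq2, pow_mul, h1, one_pow])
  have hc1 : c ^ (q + 1) = 1 := by
    apply (algebraMap F (AdjoinRoot (minpoly F T'))).injective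
    rw [map_pow, hc, h1, map_one]
  have hScU : ∀ x ∈ U, Matrix.toLin' (Am ^ (M / D)) x = c • x := by
    intro x hx
    rw [Matrix.toLin'_pow, ← hS]
    have h2 := hS'p (M / D) ⟨x, hx⟩
    rw [hk, ← map_pow, ← hc, AlgHom.commutes, Module.algebraMap_end_apply] at h2
    exact h2.symm
  have h2 := (CfsgLib.Psu.block (iterateFrobenius F p a) U hUm hiso (Am ^ (M / D)) (hunit _) (hdetk _)
    (by intro x hx; rw [hScU x hx]; exact U.smul_mem c hx)).2 c (by rw [hσ, ← pow_succ', hc1]) hScU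
  have h3 := pow_p _ c h2 (p := p) (CharP.cast_eq_zero F p) hpp.one_lt.le
  have h4 : (A ^ (M / D * p)).1.1 = Matrix.scalar (Fin (m + m)) (c ^ p) := by
    rw [coe_pow, ← hAm, pow_mul, h3]
  have h5 : (QuotientGroup.mk A : Cfsg.PSU (m + m) F q) ^ (M / D * p) = 1 := by
    rw [← QuotientGroup.mk_pow, QuotientGroup.eq_one_iff]
    exact central_of_scalar _ h4
  have h6 := orderOf_dvd_of_pow_eq_one h5
  rw [hg] at h6
  exact hNp.dvd_of_dvd_mul_right h6

theorem conj_pow' {R : Type*} [Monoid R] (P C Q : R) (h1 : P * Q = 1) (h2 : Q * P = 1) (k : ℕ) : (P * C * Q) ^ k = P * C ^ k * Q := by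
  induction k with
  | zero => rw [pow_zero, pow_zero, mul_one, h1]
  | succ k ih =>
    rw [pow_succ, ih, pow_succ]
    calc P * C ^ k * Q * (P * C * Q) = P * C ^ k * (Q * P) * C * Q := by simp only [mul_assoc]
      _ = _ := by rw [h2, mul_one]; simp only [mul_assoc]

theorem lower {F : Type*} [Field F] [Fintype F] {q m : ℕ} (hF : Fintype.card F = q ^ 2) (hodd : Odd q) (hm : 1 ≤ m) :
    ∃ g : Cfsg.PSU (m + m) F q, ((q ^ (2 * m) - 1) / (q + 1)) / Nat.gcd ((q ^ (2 * m) - 1) / (q + 1)) (q + 1) ∣ orderOf g := by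
  classical
  have hF1 : 1 < Fintype.card F := Fintype.one_lt_card
  have hq : 1 < q := by
    by_contra hcon
    have : q ^ 2 ≤ 1 := by
      have : q ≤ 1 := by omega
      nlinarith
    omega
  obtain ⟨p, hp⟩ := CharP.exists F
  haveI : Fact p.Prime := ⟨CharP.char_is_prime F p⟩
  haveI : NeZero m := ⟨by omega⟩
  obtain ⟨σ, hσ, hσσ, -⟩ := Cfsg.Agent.H22.exists_sigma hF
  obtain ⟨L, hL⟩ : ∃ L, L = (q ^ (2 * m) - 1) / (q ^ 2 - 1) := ⟨_, rfl⟩
  have hq2 : q ^ 2 - 1 = (q + 1) * (q - 1) := by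
    have h2 := Nat.sq_sub_sq q 1
    rwa [one_pow] at h2
  have hdv : q ^ 2 - 1 ∣ q ^ (2 * m) - 1 := by
    rw [pow_mul]; exact Nat.sub_one_dvd_pow_sub_one (q ^ 2) m
  have hLq : L * (q ^ 2 - 1) = q ^ (2 * m) - 1 := by rw [hL]; exact Nat.div_mul_cancel hdv
  obtain ⟨M, hM⟩ : ∃ M, M = (q ^ (2 * m) - 1) / (q + 1) := ⟨_, rfl⟩
  have hML : M = L * (q - 1) := by
    rw [hM, ← hLq, hq2, mul_comm (q + 1), ← mul_assoc, Nat.mul_div_cancel _ (Nat.succ_pos q)]
  have hMq : M * (q + 1) = q ^ (2 * m) - 1 := by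
    rw [hML, ← hLq, hq2]; ring
  have hqn : 1 < q ^ (2 * m) := Nat.one_lt_pow (by omega) hq
  have hM0 : M ≠ 0 := by
    intro h
    rw [h, zero_mul] at hMq
    omega
  rw [← hM]
  let E := FiniteField.Extension F p m
  have hE : Nat.card E = q ^ (2 * m) := by rw [FiniteField.natCard_extension, Nat.card_eq_fintype_card, hF, ← pow_mul]
  have hfr : finrank F E = m := FiniteField.finrank_extension F p m
  have hEu : Nat.card Eˣ = q ^ (2 * m) - 1 := by rw [Nat.card_units, hE]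
  obtain ⟨a, ha⟩ : ∃ a : Eˣ, orderOf a = M := by
    obtain ⟨g, hg⟩ := IsCyclic.exists_ofOrder_eq_natCard (α := Eˣ)
    refine ⟨g ^ (q + 1), ?_⟩
    rw [orderOf_pow_of_dvd (by omega) (by rw [hg, hEu, ← hMq]; exact Dvd.intro_left _ rfl), hg, hEu, ← hMq, Nat.mul_div_cancel _ (Nat.succ_pos q)]
  let b : Basis (Fin m) F E := Module.finBasisOfFinrankEq F E hfr
  obtain ⟨A, hA⟩ : ∃ A, A = Algebra.leftMulMatrix b (a : E) := ⟨_, rfl⟩
  obtain ⟨B, hB⟩ : ∃ B, B = Algebra.leftMulMatrix b ((a⁻¹ : Eˣ) : E) := ⟨_, rfl⟩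
  have hAB : A * B = 1 := by rw [hA, hB, ← map_mul, Units.mul_inv, map_one]
  have hBA : B * A = 1 := by rw [hA, hB, ← map_mul, Units.inv_mul, map_one]
  have hdA : σ A.det = A.det := by
    have h1 : A.det ^ (q - 1) = 1 := by
      apply (algebraMap F E).injective
      rw [hA, ← Algebra.norm_eq_matrix_det b, map_pow, FiniteField.algebraMap_norm_eq_pow, hE, Nat.card_eq_fintype_card, hF, ← hL, map_one, ← pow_mul, ← hML,
        ← Units.val_pow_eq_pow_val, ← ha, pow_orderOf_eq_one]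
      rfl
    rw [hσ]
    nth_rewrite 1 [← Nat.sub_add_cancel hq.le]
    rw [pow_succ, h1, one_mul]
  have hdAB : A.det * B.det = 1 := by rw [← Matrix.det_mul, hAB, Matrix.det_one]
  have hdB : σ B.det = B.det := by
    have h1 : σ A.det * σ B.det = 1 := by rw [← map_mul, hdAB, map_one]
    rw [hdA] at h1
    apply mul_left_cancel₀ (left_ne_zero_of_mul_eq_one hdAB)
    rw [h1, hdAB]
  have hmapσσ : ∀ X : Matrix (Fin m) (Fin m) F, (X.map σ).map σ = X := by
    intro X; ext i j; exact hσσ _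
  obtain ⟨C, hC⟩ : ∃ C, C = Matrix.fromBlocks A 0 0 (B.map σ).transpose := ⟨_, rfl⟩
  obtain ⟨J, hJ⟩ : ∃ J : Matrix (Fin m ⊕ Fin m) (Fin m ⊕ Fin m) F, J = Matrix.fromBlocks 0 1 1 0 := ⟨_, rfl⟩
  have hone : (1 : Matrix (Fin m) (Fin m) F).map σ = 1 := Matrix.map_one _ (map_zero σ) (map_one σ)
  have hzero : (0 : Matrix (Fin m) (Fin m) F).map σ = 0 := Matrix.map_zero _ (map_zero σ)
  have hCJ : C.transpose * J * C.map σ = J := by
    rw [hC, hJ, Matrix.fromBlocks_transpose, Matrix.fromBlocks_map, Matrix.fromBlocks_multiply, Matrix.fromBlocks_multiply, Matrix.transpose_transpose]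
    have h1 : A.transpose * ((B.map σ).transpose).map σ = 1 := by
      rw [← Matrix.transpose_map, hmapσσ, ← Matrix.transpose_mul, hBA, Matrix.transpose_one]
    have h2 : B.map σ * A.map σ = 1 := by rw [← Matrix.map_mul, hBA, hone]
    simp only [Matrix.transpose_zero, Matrix.mul_zero, Matrix.zero_mul, Matrix.mul_one, add_zero, zero_add, hzero, h1, h2]
  have hJJ : J * J = 1 := by
    rw [hJ, Matrix.fromBlocks_multiply]
    simp only [Matrix.mul_zero, Matrix.zero_mul, Matrix.mul_one, add_zero, zero_add]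
    exact Matrix.fromBlocks_one
  have hJσ : J.map σ = J := by
    rw [hJ, Matrix.fromBlocks_map, hone, hzero]
  obtain ⟨t, ht⟩ : ∃ t : F, t ^ (q + 1) = -1 := Cfsg.Agent.H22.exists_norm_eq hF (-1) (neg_ne_zero.2 one_ne_zero) (by rw [← hσ, map_neg, map_one])
  have htt : t * σ t = -1 := by rw [hσ, ← pow_succ', ht]
  have h2F : (2 : F) ≠ 0 := by
    intro h0
    have h1 : p = 2 := by
      have h2 : p ∣ 2 := (CharP.cast_eq_zero_iff F p 2).mp (by exact_mod_cast h0)
      exact (Nat.prime_dvd_prime_iff_eq (CharP.char_is_prime F _) Nat.prime_two).mp h2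
    have h2 : 2 ∣ Fintype.card F := by
      have h3 := (CharP.cast_eq_zero_iff F p _).mp (FiniteField.cast_card_eq_zero F)
      rwa [h1] at h3
    rw [hF] at h2
    have h3 := Nat.prime_two.dvd_of_dvd_pow h2
    exact (Nat.not_even_iff_odd.mpr hodd) (even_iff_two_dvd.mpr h3)
  obtain ⟨h, hh⟩ : ∃ h : F, 2 * h = 1 := ⟨2⁻¹, mul_inv_cancel₀ h2F⟩
  have hσh : σ h = h := by
    apply mul_left_cancel₀ h2F
    rw [hh]
    have h1 := congrArg σ hh
    rw [map_mul, map_one, map_ofNat] at h1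
    exact h1
  obtain ⟨P, hP⟩ : ∃ P : Matrix (Fin m ⊕ Fin m) (Fin m ⊕ Fin m) F, P = Matrix.fromBlocks 1 (h • 1) (t • 1) ((-(t * h)) • 1) := ⟨_, rfl⟩
  have hsm : ∀ c : F, (c • (1 : Matrix (Fin m) (Fin m) F)).map σ = σ c • 1 := by
    intro c
    ext i j
    rw [Matrix.map_apply, Matrix.smul_apply, Matrix.smul_apply, smul_eq_mul, smul_eq_mul, map_mul]
    congr 1
    rw [Matrix.one_apply]
    split_ifs <;> simp
  have hPJ : P.transpose * P.map σ = J := by
    rw [hP, hJ, Matrix.fromBlocks_transpose, Matrix.fromBlocks_map, Matrix.fromBlocks_multiply, hsm, hsm, hsm, hone, Matrix.transpose_one,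
      Matrix.transpose_smul, Matrix.transpose_smul, Matrix.transpose_smul, Matrix.transpose_one]
    simp only [Matrix.mul_one, Matrix.smul_mul, Matrix.one_mul, smul_smul, ← add_smul, map_neg, map_mul, hσh]
    congr 1
    · nth_rewrite 1 [← one_smul F (1 : Matrix (Fin m) (Fin m) F)]
      rw [← add_smul, htt, add_neg_cancel, zero_smul]
    · rw [show h + t * -(σ t * h) = h - (t * σ t) * h by ring, htt, show h - -1 * h = 2 * h by ring, hh, one_smul]
    · rw [show h + -(t * h) * σ t = h - (t * σ t) * h by ring, htt, show h - -1 * h = 2 * h by ring, hh, one_smul]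
    · rw [show h * h + -(t * h) * -(σ t * h) = h * h + (t * σ t) * h * h by ring, htt, show h * h + -1 * h * h = 0 by ring, zero_smul]
  have hmapσσ' : ∀ X : Matrix (Fin m ⊕ Fin m) (Fin m ⊕ Fin m) F, (X.map σ).map σ = X := by
    intro X; ext i j; exact hσσ _
  obtain ⟨Q, hQ⟩ : ∃ Q, Q = J * (P.map σ).transpose := ⟨_, rfl⟩
  have hQP : Q * P = 1 := by
    have h1 : (P.map σ).transpose * P = J := by
      have h2 : (P.transpose * P.map σ).map σ = J.map σ := by rw [hPJ]
      rw [Matrix.map_mul, hmapσσ', hJσ, Matrix.transpose_map] at h2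
      exact h2
    rw [hQ, Matrix.mul_assoc, h1, hJJ]
  have hPQ : P * Q = 1 := mul_eq_one_comm.mp hQP
  obtain ⟨G, hG⟩ : ∃ G, G = P * C * Q := ⟨_, rfl⟩
  have hGu : G.transpose * G.map σ = 1 := by
    rw [hG, Matrix.transpose_mul, Matrix.transpose_mul, Matrix.map_mul, Matrix.map_mul]
    calc Q.transpose * (C.transpose * P.transpose) * (P.map σ * C.map σ * Q.map σ)
        = Q.transpose * (C.transpose * (P.transpose * P.map σ) * C.map σ) * Q.map σ := by simp only [Matrix.mul_assoc]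
      _ = Q.transpose * J * Q.map σ := by rw [hPJ, hCJ]
      _ = (Q.transpose * P.transpose) * (P.map σ * Q.map σ) := by rw [← hPJ]; simp only [Matrix.mul_assoc]
      _ = 1 := by
        rw [← Matrix.transpose_mul, ← Matrix.map_mul, hPQ, Matrix.transpose_one, Matrix.map_one _ (map_zero σ) (map_one σ), Matrix.one_mul]
  have hGd : G.det = 1 := by
    rw [hG, Matrix.det_mul, Matrix.det_mul, mul_right_comm, ← Matrix.det_mul P Q, hPQ, Matrix.det_one, one_mul, hC, Matrix.det_fromBlocks_zero₂₁, Matrix.det_transpose]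
    have h1 : (B.map σ).det = σ B.det := (RingHom.map_det σ B).symm
    rw [h1, hdB, hdAB]
  let e := Matrix.reindexAlgEquiv F F (finSumFinEquiv (m := m) (n := m))
  have he : ∀ X : Matrix (Fin m ⊕ Fin m) (Fin m ⊕ Fin m) F, e X = X.submatrix finSumFinEquiv.symm finSumFinEquiv.symm := fun X => rfl
  have hed : (e G).det = 1 := by
    rw [he, Matrix.det_submatrix_equiv_self, hGd]
  have heu : (e G).transpose * (e G).map σ = 1 := by
    rw [he, Matrix.transpose_submatrix, ← Matrix.submatrix_map, Matrix.submatrix_mul_equiv, hGu, Matrix.submatrix_one_equiv]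
  let g : Cfsg.SU (m + m) F q := ⟨⟨e G, hed⟩, (Cfsg.Agent.H22.mem_SU_iff hσ _).2 heu⟩
  refine ⟨QuotientGroup.mk g, ?_⟩
  obtain ⟨k, hk⟩ : ∃ k, k = orderOf (QuotientGroup.mk g : Cfsg.PSU (m + m) F q) := ⟨_, rfl⟩
  rw [← hk]
  have h1 : (g ^ k) ∈ Subgroup.center (Cfsg.SU (m + m) F q) := by
    rw [← QuotientGroup.eq_one_iff]
    exact (by rw [hk]; exact pow_orderOf_eq_one _ : (QuotientGroup.mk g : Cfsg.PSU (m + m) F q) ^ k = 1)
  obtain ⟨c, hc⟩ := Cfsg.Agent.H22.center_SU_scalar hF (by omega) h1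
  have hc1 : c ^ (q + 1) = 1 := scalar_norm (by omega) hσ (g ^ k) hc
  have h2 : (e G) ^ k = Matrix.scalar (Fin (m + m)) c := by
    have h3 : (g ^ k).1.1 = (e G) ^ k := coe_pow g k
    rw [← h3]; exact hc
  have h3 : G ^ k = Matrix.scalar (Fin m ⊕ Fin m) c := by
    apply e.injective
    rw [map_pow, h2]
    have h4 : ∀ (ι : Type) [Fintype ι] [DecidableEq ι], (Matrix.scalar ι c : Matrix ι ι F) = algebraMap F (Matrix ι ι F) c := by
      intro ι _ _
      rw [Matrix.algebraMap_eq_diagonal]; rfl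
    rw [h4, h4, AlgEquiv.commutes]
  have h4 : C ^ k = Matrix.scalar (Fin m ⊕ Fin m) c := by
    rw [hG, conj_pow' P C Q hPQ hQP] at h3
    have h5 : C ^ k = Q * (P * C ^ k * Q) * P := by
      calc C ^ k = (Q * P) * C ^ k * (Q * P) := by rw [hQP, one_mul, mul_one]
        _ = _ := by simp only [mul_assoc]
    rw [h5, h3]
    have h6 : Commute (Matrix.scalar (Fin m ⊕ Fin m) c) P := Matrix.scalar_commute c (fun r => Commute.all _ _) P
    rw [mul_assoc, h6.eq, ← mul_assoc, hQP, one_mul]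
  have h5 : A ^ k = Matrix.scalar (Fin m) c := by
    rw [hC, Matrix.fromBlocks_diagonal_pow] at h4
    have h6 := congrArg Matrix.toBlocks₁₁ h4
    rw [Matrix.toBlocks_fromBlocks₁₁] at h6
    rw [h6]
    ext i j
    rw [Matrix.scalar_apply, Matrix.scalar_apply, Matrix.diagonal_apply]
    show Matrix.diagonal (fun _ => c) (Sum.inl i) (Sum.inl j) = _
    rw [Matrix.diagonal_apply]
    simp only [Sum.inl.injEq]
  have h6 : (a : E) ^ k = algebraMap F E c := by
    apply Algebra.leftMulMatrix_injective b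
    rw [map_pow, AlgHom.commutes, Matrix.algebraMap_eq_diagonal, ← hA, h5]
    rfl
  have h7 : a ^ (k * (q + 1)) = 1 := by
    apply Units.ext
    rw [Units.val_pow_eq_pow_val, pow_mul, h6, ← map_pow, hc1, map_one]
    rfl
  have h8 := orderOf_dvd_of_pow_eq_one h7
  rw [ha] at h8
  have hg0 : 0 < Nat.gcd M (q + 1) := Nat.gcd_pos_of_pos_left _ (Nat.pos_of_ne_zero hM0)
  have h9 : M / Nat.gcd M (q + 1) ∣ k * ((q + 1) / Nat.gcd M (q + 1)) := by
    rw [← Nat.mul_div_assoc _ (Nat.gcd_dvd_right _ _)]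
    exact Nat.div_dvd_div (Nat.gcd_dvd_left _ _) h8
  exact (Nat.coprime_div_gcd_div_gcd hg0).dvd_of_dvd_mul_right h9

/-- Let q be an odd prime power, n ≥ 4 even, and U = PSU(n,q) (realised over the field with q² elements). Then U has an element of order q^(n/2) + (−1)^(n/2) — that is, q^(n/2) + 1 when n/2 is even and q^(n/2) − 1 when n/2 is odd — if and only if the 2-part of n exceeds the 2-part of q + 1. -/
theorem result {F : Type*} [Field F] [Fintype F] {q : ℕ} (hF : Fintype.card F = q ^ 2) (hodd : Odd q)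
    {n : ℕ} (hn : 4 ≤ n) (heven : Even n) :
    (∃ g : Cfsg.PSU n F q, orderOf g = if Even (n / 2) then q ^ (n / 2) + 1 else q ^ (n / 2) - 1) ↔
      padicValNat 2 (q + 1) < padicValNat 2 n := by
  have hF1 : 1 < Fintype.card F := Fintype.one_lt_card
  have hq : 1 < q := by
    by_contra hcon
    have : q ^ 2 ≤ 1 := by
      have : q ≤ 1 := by omega
      nlinarith
    omega
  obtain ⟨m, rfl⟩ : ∃ m, n = m + m := heven
  have h2m : (m + m) / 2 = m := by omega
  rw [h2m, ← two_mul, ← CfsgLib.Psu.arith (q := q) (m := m) hq (by omega), two_mul]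
  have hqm : 1 < q ^ m := Nat.one_lt_pow (by omega) hq
  constructor
  · rintro ⟨g, hg⟩
    rw [← two_mul m] 
    exact upper hF hodd (by omega) g hg
  · intro h
    obtain ⟨g, hg⟩ := lower (F := F) (q := q) (m := m) hF hodd (by omega)
    rw [← two_mul m] at h
    obtain ⟨t, ht⟩ := h.trans hg
    have hg0 : 0 < orderOf g := orderOf_pos g
    have ht0 : t ≠ 0 := by
      rintro rfl
      rw [mul_zero] at ht; omega
    refine ⟨g ^ t, ?_⟩
    rw [orderOf_pow_of_dvd ht0 (by rw [ht]; exact Dvd.intro_left _ rfl), ht]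
    exact Nat.mul_div_cancel _ (Nat.pos_of_ne_zero ht0)

end Cfsg.Agent.S2496
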