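import Cfsg.Statements.S2508
import Mathlib
import Cfsg.Agent.LibH6P2E

set_option autoImplicit false
open Cfsg

namespace Cfsg.Agent.S2508

/-- Let F be a finite field with q elements, q odd and q ≥ 7. If q ≡ 1 (mod 4) the conjugacy class sizes of PSL(2,F) are exactly 1, (q² − 1)/2, q(q + 1)/2, q(q − 1) and q(q + 1); if q ≡ 3 (mod 4) they are exactly 1, (q² − 1)/2, q(q − 1)/2, q(q + 1) and q(q − 1). -/
theorem result {F : Type*} [Field F] [Fintype F]
    (hodd : ¬ 2 ∣ Fintype.card F) (h7 : 7 ≤ Fintype.card F) :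
    (Fintype.card F % 4 = 1 →
      Set.range (fun g : (Matrix.ProjectiveSpecialLinearGroup (Fin 2) F) => (Subgroup.centralizer ({g} : Set (Matrix.ProjectiveSpecialLinearGroup (Fin 2) F))).index) =
        {1, (Fintype.card F ^ 2 - 1) / 2, Fintype.card F * (Fintype.card F + 1) / 2,
          Fintype.card F * (Fintype.card F - 1), Fintype.card F * (Fintype.card F + 1)}) ∧
    (Fintype.card F % 4 = 3 →
      Set.range (fun g : (Matrix.ProjectiveSpecialLinearGroup (Fin 2) F) => (Subgroup.centralizer ({g} : Set (Matrix.ProjectiveSpecialLinearGroup (Fin 2) F))).index) =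
        {1, (Fintype.card F ^ 2 - 1) / 2, Fintype.card F * (Fintype.card F - 1) / 2,
          Fintype.card F * (Fintype.card F + 1), Fintype.card F * (Fintype.card F - 1)}) := by
  classical
  have h2 : (2 : F) ≠ 0 := by
    rcases CfsgLib.H6P2.even_or_odd (F := F) with ⟨h, _⟩ | ⟨_, h3, _⟩
    · exfalso
      have := CfsgLib.Dk29.gcd_cases (Fintype.card F) Fintype.one_lt_card
      rcases this with ⟨_, h5⟩ | ⟨h5, _⟩
      · have h6 : Even (Fintype.card F) := h5
        exact hodd h6.two_dvd
      · omega
    · exact h3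
  have ho : Odd (Fintype.card F) := Nat.not_even_iff_odd.mp (fun h => hodd h.two_dvd)
  have hr := CfsgLib.H6P2.rho_zero_of_mod ho h2
  constructor
  · intro h1
    rw [CfsgLib.H6P2.classes_odd_aux ho h2 h7, hr.1 h1,
      show Fintype.card F * (Fintype.card F - 1) + Fintype.card F * 2 = Fintype.card F * (Fintype.card F + 1) by
        rw [← mul_add]; congr 1; omega]
  · intro h1
    rw [CfsgLib.H6P2.classes_odd_aux ho h2 h7, hr.2 h1, mul_zero, add_zero]
    ext x
    simp only [Set.mem_insert_iff, Set.mem_singleton_iff]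
    tauto

end Cfsg.Agent.S2508
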