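import Cfsg.Statements.S2510
import Mathlib
import Cfsg.Agent.LibSpecLin27b

set_option autoImplicit false
open Cfsg

namespace Cfsg.Agent.S2510

open CfsgLib.SpecLin27

section

variable {F : Type*} [Field F] [Fintype F] (p a n r m : ℕ)

local notation "L" => Matrix.ProjectiveSpecialLinearGroup (Fin n) F

theorem lcm_aux {r x y : ℕ} (hr : r.Prime) (hx : ¬ r ∣ x) : Nat.lcm (r * x) y = Nat.lcm (Nat.lcm x y) r := by
  have h1 : r * x = Nat.lcm r x := ((Nat.Prime.coprime_iff_not_dvd hr).mpr hx).lcm_eq_mul.symm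
  rw [h1, Nat.lcm_assoc, Nat.lcm_comm r]

/-- data about `L` -/
structure Data (F : Type*) [Field F] [Fintype F] (p n r : ℕ) : Prop where
  finL : Finite (Matrix.ProjectiveSpecialLinearGroup (Fin n) F)
  exr : ∃ g : Matrix.ProjectiveSpecialLinearGroup (Fin n) F, orderOf g = r
  main : ∃ (t : ℕ) (τ υ : Matrix.ProjectiveSpecialLinearGroup (Fin n) F), n ≤ p ^ t ∧ (∀ s, s < t → p ^ s < n) ∧
    orderOf υ = p ^ t ∧
    (∀ g : Matrix.ProjectiveSpecialLinearGroup (Fin n) F, ¬ r ∣ orderOf g →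
      (∃ g' : Matrix.ProjectiveSpecialLinearGroup (Fin n) F, orderOf g' = r * orderOf g) ∨
        orderOf g ∣ p ^ t * orderOf τ) ∧
    ∃ N : ℕ, N.Coprime p ∧ ∀ g : Matrix.ProjectiveSpecialLinearGroup (Fin n) F, orderOf g ∣ p ^ t * N

theorem exists_root (hr : r.Prime) (hrq : r ∣ Fintype.card F - 1) : ∃ ζ : F, ζ ^ r = 1 ∧ ζ ≠ 1 := by
  haveI := Fact.mk hr
  obtain ⟨u, hu⟩ := exists_prime_orderOf_dvd_card' (G := Fˣ) r (by
    rw [Nat.card_units, Nat.card_eq_fintype_card]; exact hrq)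
  refine ⟨u, ?_, ?_⟩
  · have := pow_orderOf_eq_one u
    rw [hu] at this
    exact congrArg Units.val this
  · intro h
    have h1 : u = 1 := Units.ext h
    rw [h1, orderOf_one] at hu
    exact hr.one_lt.ne hu

theorem getData [Fact p.Prime] [CharP F p] (hn : 2 ≤ n) (hr : r.Prime) (hrq : r ∣ Fintype.card F - 1) (hrn : ¬ r ∣ n) :
    Data F p n r := by
  obtain ⟨ζ, hζ, hζ1⟩ := exists_root r hr hrq (F := F)
  have hfin : Finite (Matrix.SpecialLinearGroup (Fin n) F) := Subtype.finite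
  refine ⟨Quotient.finite _, ?_, ?_⟩
  · have h0 : (0 : ℕ) < n := by omega
    have h1 : (1 : ℕ) < n := by omega
    obtain ⟨g, hg⟩ := exists_orderOf_mul hr hrn ζ hζ hζ1 (1 : Matrix.SpecialLinearGroup (Fin n) F)
      (Matrix.single ⟨0, h0⟩ ⟨0, h0⟩ 1) (by simp)
      (by
        intro h
        have := congrFun (congrFun h ⟨0, h0⟩) ⟨0, h0⟩
        simp at this)
      (by
        intro h
        have := congrFun (congrFun h ⟨1, h1⟩) ⟨1, h1⟩
        simp at this)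
      (by simp)
      (by rw [QuotientGroup.mk_one, orderOf_one]; exact hr.one_lt.ne' ∘ Nat.dvd_one.mp)
    refine ⟨g, ?_⟩
    rw [hg, QuotientGroup.mk_one, orderOf_one, mul_one]
  · obtain ⟨t, ht, ht'⟩ : ∃ t, n ≤ p ^ t ∧ ∀ s, s < t → p ^ s < n := by
      have hex : ∃ t, n ≤ p ^ t := ⟨n, (Nat.lt_pow_self (Fact.out : p.Prime).one_lt).le⟩
      classical
      refine ⟨Nat.find hex, Nat.find_spec hex, fun s hs => ?_⟩
      have := Nat.find_min hex hs
      omega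
    obtain ⟨τ, hτ⟩ := exists_singer (F := F) p (n := n) (by omega)
    obtain ⟨u, -, hu⟩ := exists_psl_unipotent (F := F) p (n := n) (by omega) t ht ht'
    refine ⟨t, τ, QuotientGroup.mk u, ht, ht', hu, ?_, exists_bound p t ht⟩
    intro g hg
    obtain ⟨A, rfl⟩ := QuotientGroup.mk_surjective g
    rcases idempotent_or_primary (by omega) (A : Matrix (Fin n) (Fin n) F) with ⟨e, he, he0, he1, heA, -⟩ | ⟨f, j, hf, hfm, hA⟩
    · left
      exact exists_orderOf_mul hr hrn ζ hζ hζ1 A e he he0 he1 heA hg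
    · right
      exact hτ A ⟨f, j, hf, hfm, hA⟩ t ht

variable {p n r}

/-- combine: decomposition of an isolated number -/
theorem isolated_split (D : Data F p n r) (hp : p.Prime) (N : ℕ) (hN0 : N ≠ 0) (t : ℕ) (τ υ : Matrix.ProjectiveSpecialLinearGroup (Fin n) F)
    (hυ : orderOf υ = p ^ t) (hN : N ∣ p ^ t * orderOf τ)
    (hb : ∃ B : ℕ, B.Coprime p ∧ N ∣ p ^ t * B) :
    ∃ (u M : ℕ) (x y : Matrix.ProjectiveSpecialLinearGroup (Fin n) F), N = p ^ u * M ∧ M.Coprime p ∧ u ≤ t ∧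
      orderOf x = M ∧ orderOf y = p ^ u := by
  haveI := D.finL
  obtain ⟨u, M, hM, hNM⟩ := Nat.exists_eq_pow_mul_and_not_dvd hN0 p hp.one_lt.ne'
  have hMp : M.Coprime p := (Nat.coprime_comm.mp ((Nat.Prime.coprime_iff_not_dvd hp).mpr hM))
  obtain ⟨B, hB, hNB⟩ := hb
  have hu : p ^ u ∣ p ^ t := by
    have h1 : p ^ u ∣ p ^ t * B := (Dvd.intro _ hNM.symm).trans hNB
    exact Nat.Coprime.dvd_of_dvd_mul_right (Nat.Coprime.pow_left _ hB.symm) h1
  have hMτ : M ∣ orderOf τ := by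
    have h1 : M ∣ p ^ t * orderOf τ := (Dvd.intro_left _ hNM.symm).trans hN
    exact Nat.Coprime.dvd_of_dvd_mul_left (Nat.Coprime.pow_right _ hMp) h1
  obtain ⟨x, hx⟩ := exists_orderOf_dvd τ hMτ
  obtain ⟨y, hy⟩ := exists_orderOf_dvd υ (m := p ^ u) (by rw [hυ]; exact hu)
  exact ⟨u, M, x, y, hNM, hMp, (Nat.pow_dvd_pow_iff_le_right hp.one_lt).1 hu, hx, hy⟩

theorem triple (D : Data F p n r) (hp : p.Prime) (hr : r.Prime) (a b c : Matrix.ProjectiveSpecialLinearGroup (Fin n) F) :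
    ∃ a' b' c' : Matrix.ProjectiveSpecialLinearGroup (Fin n) F,
      (orderOf a').lcm ((orderOf b').lcm (orderOf c')) = ((orderOf a).lcm ((orderOf b).lcm (orderOf c))).lcm r := by
  haveI := D.finL
  obtain ⟨t, τ, υ, ht, ht', hυ, hiso, hbd⟩ := D.main
  by_cases hra : r ∣ orderOf a
  · exact ⟨a, b, c, (Nat.lcm_eq_left (hra.trans (Nat.dvd_lcm_left _ _))).symm⟩
  by_cases hrb : r ∣ orderOf b
  · exact ⟨a, b, c, (Nat.lcm_eq_left ((hrb.trans (Nat.dvd_lcm_left _ _)).trans (Nat.dvd_lcm_right _ _))).symm⟩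
  by_cases hrc : r ∣ orderOf c
  · exact ⟨a, b, c, (Nat.lcm_eq_left ((hrc.trans (Nat.dvd_lcm_right _ _)).trans (Nat.dvd_lcm_right _ _))).symm⟩
  rcases hiso a hra with ⟨a', ha'⟩ | ha
  · exact ⟨a', b, c, by rw [ha', lcm_aux hr hra]⟩
  rcases hiso b hrb with ⟨b', hb'⟩ | hb
  · exact ⟨a, b', c, by rw [hb', lcm_aux hr hrb, ← Nat.lcm_assoc]⟩
  rcases hiso c hrc with ⟨c', hc'⟩ | hc
  · refine ⟨a, b, c', ?_⟩
    rw [hc', Nat.lcm_comm (orderOf b), lcm_aux hr hrc, ← Nat.lcm_assoc, Nat.lcm_comm (orderOf c)]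
  obtain ⟨B, hB, hBg⟩ := hbd
  obtain ⟨g, hg⟩ := D.exr
  set N := (orderOf a).lcm ((orderOf b).lcm (orderOf c)) with hNdef
  have hN0 : N ≠ 0 := Nat.lcm_ne_zero (orderOf_pos a).ne' (Nat.lcm_ne_zero (orderOf_pos b).ne' (orderOf_pos c).ne')
  obtain ⟨u, M, x, y, hN, hM, -, hx, hy⟩ := isolated_split D hp N hN0 t τ υ hυ
    (Nat.lcm_dvd ha (Nat.lcm_dvd hb hc)) ⟨B, hB, Nat.lcm_dvd (hBg a) (Nat.lcm_dvd (hBg b) (hBg c))⟩
  refine ⟨x, y, g, ?_⟩
  rw [hx, hy, hg, ← Nat.lcm_assoc, (Nat.Coprime.pow_right u hM).lcm_eq_mul, hN, mul_comm M]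

theorem pair (D : Data F p n r) (hp : p.Prime) [CharP F p] (hn : 2 ≤ n) (hr : r.Prime) (hrq : r ∣ Fintype.card F - 1) (hrn : ¬ r ∣ n)
    (hrp : r ≠ p) (hpow : ¬ ∃ j : ℕ, n - 1 = p ^ j) (a b : Matrix.ProjectiveSpecialLinearGroup (Fin n) F) :
    ∃ a' b' : Matrix.ProjectiveSpecialLinearGroup (Fin n) F,
      (orderOf a').lcm (orderOf b') = ((orderOf a).lcm (orderOf b)).lcm r := by
  haveI := D.finL
  haveI := Fact.mk hp
  obtain ⟨t, τ, υ, ht, ht', hυ, hiso, hbd⟩ := D.main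
  by_cases hra : r ∣ orderOf a
  · exact ⟨a, b, (Nat.lcm_eq_left (hra.trans (Nat.dvd_lcm_left _ _))).symm⟩
  by_cases hrb : r ∣ orderOf b
  · exact ⟨a, b, (Nat.lcm_eq_left (hrb.trans (Nat.dvd_lcm_right _ _))).symm⟩
  rcases hiso a hra with ⟨a', ha'⟩ | ha
  · exact ⟨a', b, by rw [ha', lcm_aux hr hra]⟩
  rcases hiso b hrb with ⟨b', hb'⟩ | hb
  · exact ⟨a, b', by rw [hb', Nat.lcm_comm, lcm_aux hr hrb, Nat.lcm_comm (orderOf b)]⟩
  obtain ⟨B, hB, hBg⟩ := hbd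
  set N := (orderOf a).lcm (orderOf b) with hNdef
  have hN0 : N ≠ 0 := Nat.lcm_ne_zero (orderOf_pos a).ne' (orderOf_pos b).ne'
  obtain ⟨u, M, x, y, hN, hM, hut, hx, hy⟩ := isolated_split D hp N hN0 t τ υ hυ
    (Nat.lcm_dvd ha hb) ⟨B, hB, Nat.lcm_dvd (hBg a) (hBg b)⟩
  obtain ⟨ζ, hζ, hζ1⟩ := exists_root r hr hrq (F := F)
  obtain ⟨w, e, hw, he, he0, he1, hew⟩ := exists_unipotent_idem (F := F) p (n := n) hn t (by omega)
    (fun s hs => by
      have h1 := ht' s hs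
      have h2 : n - 1 ≠ p ^ s := fun h => hpow ⟨s, h⟩
      omega)
  have hrw : ¬ r ∣ p ^ t := fun h => hrp ((Nat.prime_dvd_prime_iff_eq hr hp).1 (hr.dvd_of_dvd_pow h))
  obtain ⟨g, hg⟩ := exists_orderOf_mul hr hrn ζ hζ hζ1 w e he he0 he1 hew (by rw [hw]; exact hrw)
  rw [hw] at hg
  obtain ⟨g', hg'⟩ := exists_orderOf_dvd g (m := r * p ^ u) (by rw [hg]; exact Nat.mul_dvd_mul_left _ (pow_dvd_pow _ hut))
  refine ⟨x, g', ?_⟩
  have hru : r.Coprime (p ^ u) := (Nat.Prime.coprime_iff_not_dvd hr).mpr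
    (fun h => hrw (h.trans (pow_dvd_pow _ hut)))
  rw [hx, hg', hN, ← hru.lcm_eq_mul, Nat.lcm_comm r, ← Nat.lcm_assoc, (Nat.Coprime.pow_right u hM).lcm_eq_mul,
    mul_comm M]

theorem orderOf_mult (hr : r.Prime) {m : ℕ} (z : Multiplicative (Fin m → ZMod r)) : orderOf z = 1 ∨ orderOf z = r := by
  rw [← Nat.dvd_prime hr]
  apply orderOf_dvd_of_pow_eq_one
  apply Multiplicative.toAdd.injective
  rw [toAdd_pow, toAdd_one]
  funext i
  rw [Pi.smul_apply, nsmul_eq_mul, CharP.cast_eq_zero, zero_mul, Pi.zero_apply]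

end

theorem result {F : Type*} [Field F] [Fintype F] (p a n r m : ℕ) (hp : p.Prime) (ha : 1 ≤ a) (hF : Fintype.card F = p ^ a)
    (hn : 2 ≤ n) (hn2 : n = 2 → 4 ≤ Fintype.card F) (hr : r.Prime) (hrq : r ∣ Fintype.card F - 1) (hrn : ¬ r ∣ n) :
    Set.range (orderOf : Matrix.ProjectiveSpecialLinearGroup (Fin n) F × Matrix.ProjectiveSpecialLinearGroup (Fin n) F × Matrix.ProjectiveSpecialLinearGroup (Fin n) F × Multiplicative (Fin m → ZMod r) → ℕ) =
      Set.range (orderOf : Matrix.ProjectiveSpecialLinearGroup (Fin n) F × Matrix.ProjectiveSpecialLinearGroup (Fin n) F × Matrix.ProjectiveSpecialLinearGroup (Fin n) F → ℕ) ∧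
    ((¬ ∃ j : ℕ, n - 1 = p ^ j) →
      Set.range (orderOf : Matrix.ProjectiveSpecialLinearGroup (Fin n) F × Matrix.ProjectiveSpecialLinearGroup (Fin n) F × Multiplicative (Fin m → ZMod r) → ℕ) =
        Set.range (orderOf : Matrix.ProjectiveSpecialLinearGroup (Fin n) F × Matrix.ProjectiveSpecialLinearGroup (Fin n) F → ℕ)) := by

  haveI := Fact.mk hp
  haveI : CharP F p := by
    obtain ⟨p', hp'⟩ := CharP.exists F
    obtain ⟨m', hpr, hm'⟩ := FiniteField.card F p'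
    rw [hF] at hm'
    have h1 : p' ∣ p ^ a := by rw [hm']; exact dvd_pow_self p' m'.pos.ne'
    have h2 : p' = p := (Nat.prime_dvd_prime_iff_eq hpr hp).1 (hpr.dvd_of_dvd_pow h1)
    exact h2 ▸ hp'
  have hrp : r ≠ p := by
    rintro rfl
    have h1 : r ∣ Fintype.card F := by rw [hF]; exact dvd_pow_self r (by omega)
    have hpos : 1 ≤ Fintype.card F := Fintype.card_pos
    have h2 : r ∣ 1 := by
      have := Nat.dvd_sub h1 hrq
      rwa [Nat.sub_sub_self hpos] at this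
    exact hr.one_lt.ne' (Nat.dvd_one.mp h2)
  have D : Data F p n r := getData p n r hn hr hrq hrn
  refine ⟨?_, fun hpow => ?_⟩
  · apply Set.Subset.antisymm
    · rintro _ ⟨⟨a, b, c, z⟩, rfl⟩
      rw [Prod.orderOf_mk, Prod.orderOf_mk, Prod.orderOf_mk]
      rcases orderOf_mult hr z with hz | hz
      · refine ⟨(a, b, c), ?_⟩
        rw [Prod.orderOf_mk, Prod.orderOf_mk, hz, Nat.lcm_one_right]
      · obtain ⟨a', b', c', h⟩ := triple D hp hr a b c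
        refine ⟨(a', b', c'), ?_⟩
        rw [Prod.orderOf_mk, Prod.orderOf_mk, h, hz, Nat.lcm_assoc, Nat.lcm_assoc]
    · rintro _ ⟨⟨a, b, c⟩, rfl⟩
      refine ⟨(a, b, c, 1), ?_⟩
      rw [Prod.orderOf_mk, Prod.orderOf_mk, Prod.orderOf_mk, Prod.orderOf_mk, Prod.orderOf_mk, orderOf_one,
        Nat.lcm_one_right]
  · apply Set.Subset.antisymm
    · rintro _ ⟨⟨a, b, z⟩, rfl⟩
      rw [Prod.orderOf_mk, Prod.orderOf_mk]
      rcases orderOf_mult hr z with hz | hz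
      · refine ⟨(a, b), ?_⟩
        rw [Prod.orderOf_mk, hz, Nat.lcm_one_right]
      · obtain ⟨a', b', h⟩ := pair D hp hn hr hrq hrn hrp hpow a b
        refine ⟨(a', b'), ?_⟩
        rw [Prod.orderOf_mk, h, hz, Nat.lcm_assoc]
    · rintro _ ⟨⟨a, b⟩, rfl⟩
      refine ⟨(a, b, 1), ?_⟩
      rw [Prod.orderOf_mk, Prod.orderOf_mk, Prod.orderOf_mk, orderOf_one, Nat.lcm_one_right]

end Cfsg.Agent.S2510
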