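import Cfsg.Statements.S2511
import Cfsg.Agent.LibUPrim27
import Cfsg.Agent.LibSpecComb27

set_option autoImplicit false
open Cfsg

namespace Cfsg.Agent.S2511

open CfsgLib.SU27 Polynomial

theorem orderOf_eq_of_forall {G : Type*} [Group G] (g : G) (m : ℕ) (h : ∀ k : ℕ, g ^ k = 1 ↔ m ∣ k) : orderOf g = m :=
  Nat.dvd_antisymm (orderOf_dvd_of_pow_eq_one ((h m).2 dvd_rfl)) ((h _).1 (pow_orderOf_eq_one g))

section

variable {F : Type*} [Field F] [Fintype F] (p : ℕ) [Fact p.Prime] [CharP F p] {q : ℕ}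

theorem exists_conj (hF : Fintype.card F = q ^ 2) :
    ∃ σ : F →+* F, (∀ x, σ x = x ^ q) ∧ (∀ x, σ (σ x) = x) ∧ σ ≠ RingHom.id F := by
  obtain ⟨p, hchar⟩ := CharP.exists F
  have : Fact p.Prime := ⟨CharP.char_is_prime F p⟩
  have hp : p.Prime := Fact.out
  obtain ⟨n, _, hcard⟩ := FiniteField.card F p
  obtain ⟨k, _, hk⟩ := (Nat.dvd_prime_pow hp).mp
    (show q ∣ p ^ (n : ℕ) from by rw [← hcard, hF, sq]; exact Dvd.intro _ rfl)
  have hq2 : 2 ≤ q := Cfsg.Agent.H22.two_le_of_card_sq hF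
  have hσ : ∀ x, (iterateFrobenius F p k) x = x ^ q := fun x => by rw [iterateFrobenius_def, hk]
  refine ⟨iterateFrobenius F p k, hσ, fun x => ?_, fun h => ?_⟩
  · rw [hσ, hσ, ← pow_mul]
    have := FiniteField.pow_card x
    rwa [hF, sq] at this
  · obtain ⟨g, hg⟩ := IsCyclic.exists_generator (α := Fˣ)
    have hord : orderOf g = q ^ 2 - 1 := by
      rw [orderOf_eq_card_of_forall_mem_zpowers hg, Nat.card_units, Nat.card_eq_fintype_card, hF]
    have h1 : g ^ q = g := by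
      ext
      rw [Units.val_pow_eq_pow_val, ← hσ, h]; rfl
    have h2 : g ^ (q - 1) = 1 := by
      have : g ^ (q - 1) * g = g := by rw [← pow_succ, Nat.sub_add_cancel (by omega), h1]
      exact mul_eq_right.mp this
    have h3 := Nat.le_of_dvd (by omega) (orderOf_dvd_of_pow_eq_one h2)
    rw [hord] at h3
    have : q * q ≥ 2 * q := Nat.mul_le_mul_right q hq2
    rw [pow_two] at h3
    omega

theorem exists_zeta (hF : Fintype.card F = q ^ 2) {m : ℕ} (hm : m ∣ q + 1) : ∃ ζ : Fˣ, orderOf ζ = m := by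
  apply CfsgLib.SympAlg27.exists_unit_orderOf
  have hq2 : 2 ≤ q := Cfsg.Agent.H22.two_le_of_card_sq hF
  rw [Nat.card_eq_fintype_card, hF]
  have : q ^ 2 - 1 = (q + 1) * (q - 1) := by
    have := Nat.sq_sub_sq q 1
    simpa using this
  rw [this]
  exact hm.mul_right _

theorem hex (hF : Fintype.card F = q ^ 2) : ∃ ζ : F, ζ ^ (q + 1) = 1 ∧ ζ ^ 2 ≠ 1 := by
  obtain ⟨ζ, hζ⟩ := exists_zeta (F := F) hF (m := q + 1) dvd_rfl
  have hq2 : 2 ≤ q := Cfsg.Agent.H22.two_le_of_card_sq hF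
  refine ⟨ζ, ?_, ?_⟩
  · rw [← Units.val_pow_eq_pow_val, ← hζ, pow_orderOf_eq_one, Units.val_one]
  · intro h
    have h1 : ζ ^ 2 = 1 := by ext; simpa using h
    have h2 := Nat.le_of_dvd (by norm_num) (orderOf_dvd_of_pow_eq_one h1)
    omega

include p in
theorem p_dvd_q (hF : Fintype.card F = q ^ 2) : p ∣ q := by
  obtain ⟨a, hp, ha⟩ := FiniteField.card F p
  rw [hF] at ha
  have : p ∣ q ^ 2 := by rw [ha]; exact dvd_pow_self p a.pos.ne'
  exact hp.dvd_of_dvd_pow this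

include p in
theorem bound (hF : Fintype.card F = q ^ 2) {n t : ℕ} (ht : n ≤ p ^ t) :
    ∃ N : ℕ, N.Coprime p ∧ ∀ g : PSU n F q, orderOf g ∣ p ^ t * N := by
  refine ⟨∏ d ∈ Finset.Icc 1 n, (Fintype.card F ^ d - 1), ?_, ?_⟩
  · apply Nat.Coprime.prod_left
    intro d hd
    rw [Finset.mem_Icc] at hd
    rw [Nat.coprime_comm, Nat.Prime.coprime_iff_not_dvd (Fact.out : p.Prime)]
    intro h
    have h1 : p ∣ Fintype.card F ^ d := by
      rw [hF, ← pow_mul]
      exact (p_dvd_q p hF).trans (dvd_pow_self q (by omega))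
    have hpos : 1 ≤ (Fintype.card F) ^ d := Nat.one_le_pow _ _ Fintype.card_pos
    have h2 : p ∣ 1 := by
      have := Nat.dvd_sub h1 h
      rwa [Nat.sub_sub_self hpos] at this
    exact (Fact.out : p.Prime).one_lt.ne' (Nat.dvd_one.mp h2)
  · intro g
    obtain ⟨A, rfl⟩ := QuotientGroup.mk_surjective g
    apply orderOf_dvd_of_pow_eq_one
    have hA : (((A : Matrix.SpecialLinearGroup (Fin n) F) : Matrix (Fin n) (Fin n) F)) ^
        (p ^ t * ∏ d ∈ Finset.Icc 1 n, (Fintype.card F ^ d - 1)) = 1 := by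
      apply CfsgLib.SpecLin27.matrix_pow_eq_one p _ (by rw [(A : Matrix.SpecialLinearGroup (Fin n) F).det_coe]; exact one_ne_zero) t _ ht
        (dvd_mul_right _ _)
      intro f hf hfA
      apply Dvd.dvd.mul_left
      apply Finset.dvd_prod_of_mem (fun d => Fintype.card F ^ d - 1)
      rw [Finset.mem_Icc]
      refine ⟨hf.natDegree_pos, ?_⟩
      have h5 := Polynomial.natDegree_le_of_dvd hfA (Matrix.charpoly_monic _).ne_zero
      rwa [Matrix.charpoly_natDegree_eq_dim, Fintype.card_fin] at h5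
    rw [← QuotientGroup.mk_pow, QuotientGroup.eq_one_iff]
    have : A ^ (p ^ t * ∏ d ∈ Finset.Icc 1 n, (Fintype.card F ^ d - 1)) = 1 := by
      apply Subtype.ext
      apply Subtype.ext
      rw [Subgroup.coe_pow, Matrix.SpecialLinearGroup.coe_pow, hA]
      rfl
    rw [this]
    exact Subgroup.one_mem _

include p in
theorem exists_torus {σ : F →+* F} (hF : Fintype.card F = q ^ 2) (hσ : ∀ x, σ x = x ^ q) (hσ2 : ∀ x, σ (σ x) = x)
    (hσ1 : σ ≠ RingHom.id F) {n N : ℕ} (hn : 1 ≤ n)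
    (hN : (Odd n ∧ N * (q + 1) = q ^ n + 1) ∨ (Even n ∧ N * (q + 1) + 1 = q ^ n)) :
    ∃ τ : PSU n F q, N ∣ orderOf τ * (q + 1) := by
  obtain ⟨E, i1, i2, i3, S, u, hE, hu, hnorm, hk⟩ : ∃ (E : Type) (_ : CommRing E) (_ : Algebra F E)
      (_ : FiniteDimensional F E) (S : UAlg σ E) (u : E),
      Module.finrank F E = n ∧ S.star u * u = 1 ∧ Algebra.norm F u = 1 ∧ (∀ k : ℕ, u ^ k = 1 ↔ N ∣ k) := by
    rcases hN with ⟨hodd, hN⟩ | ⟨heven, hN⟩
    · obtain ⟨E, i1, i2, i3, S, u, hE, hu, hnorm, hk⟩ := exists_odd_torus (σ := σ) p hF hσ hodd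
      refine ⟨E, i1, i2, i3, S, u, hE, hu, hnorm, ?_⟩
      have : (q ^ n + 1) / (q + 1) = N := by rw [← hN]; exact Nat.mul_div_cancel _ (by omega)
      rw [this] at hk
      exact hk
    · obtain ⟨m, hm⟩ := heven
      obtain ⟨E, i1, i2, i3, S, u, hE, hu, hnorm, hk⟩ := exists_even_torus (σ := σ) p hF hσ (m := m) (by omega)
      refine ⟨E, i1, i2, i3, S, u, by rw [hE]; omega, hu, hnorm, ?_⟩
      have : (q ^ (2 * m) - 1) / (q + 1) = N := by
        rw [show 2 * m = n by omega, ← hN, Nat.add_sub_cancel]; exact Nat.mul_div_cancel _ (by omega)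
      rw [this] at hk
      exact hk
  obtain ⟨b, hb⟩ := S.exists_su hσ hσ1 hσ2 (hex hF) hE
  obtain ⟨-, hbx⟩ := hb u
  obtain ⟨g, -, -, hg⟩ := hbx hu hnorm
  haveI : Nontrivial E := by
    by_contra h
    rw [not_nontrivial_iff_subsingleton] at h
    have := Module.finrank_zero_of_subsingleton (R := F) (M := E)
    omega
  refine ⟨QuotientGroup.mk g, ?_⟩
  obtain ⟨c, hc⟩ := (hg _).1 (pow_orderOf_eq_one (QuotientGroup.mk g : PSU n F q))
  rw [← hk, pow_mul, hc]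
  have h1 : S.star (algebraMap F E c) * algebraMap F E c = 1 := by
    rw [← hc, map_pow, ← mul_pow, hu, one_pow]
  rw [S.semi, ← map_mul, ← map_one (algebraMap F E)] at h1
  have h2 : σ c * c = 1 := (algebraMap F E).injective h1
  rw [hσ, ← pow_succ] at h2
  rw [← map_pow, h2, map_one]

include p in
theorem exists_unip {σ : F →+* F} (hF : Fintype.card F = q ^ 2) (hσ : ∀ x, σ x = x ^ q) (hσ2 : ∀ x, σ (σ x) = x)
    (hσ1 : σ ≠ RingHom.id F) {n t : ℕ} (hn : 1 ≤ n) (ht : n ≤ p ^ t) (ht' : ∀ s, s < t → p ^ s < n) :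
    ∃ υ : PSU n F q, orderOf υ = p ^ t := by
  obtain ⟨E, i1, i2, i3, S, u, i4, hE, hu, hnorm, hpt, hk⟩ := exists_unip_alg (σ := σ) p hσ1 hσ2 hn t ht ht'
  obtain ⟨b, hb⟩ := S.exists_su hσ hσ1 hσ2 (hex hF) hE
  obtain ⟨-, hbx⟩ := hb u
  obtain ⟨g, -, -, hg⟩ := hbx hu hnorm
  refine ⟨QuotientGroup.mk g, orderOf_eq_of_forall _ _ fun k => ?_⟩
  rw [hg]
  constructor
  · exact hk k
  · rintro ⟨j, rfl⟩
    exact ⟨1, by rw [pow_mul, hpt, one_pow, map_one]⟩

include p in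
theorem getData {σ : F →+* F} (hF : Fintype.card F = q ^ 2) (hσ : ∀ x, σ x = x ^ q) (hσ2 : ∀ x, σ (σ x) = x)
    (hσ1 : σ ≠ RingHom.id F) {n t r : ℕ} (hn : 3 ≤ n) (hr : r.Prime) (hrq : r ∣ q + 1) (hrn : ¬ r ∣ n)
    (ht : n ≤ p ^ t) (ht' : ∀ s, s < t → p ^ s < n) :
    CfsgLib.SpecComb27.Data (PSU n F q) p r t := by
  haveI := Fact.mk hr
  haveI : Finite (Matrix.SpecialLinearGroup (Fin n) F) := Subtype.finite
  haveI : Finite (SU n F q) := Subtype.finite
  haveI : Finite (PSU n F q) := Quotient.finite _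
  obtain ⟨ζ, hζ⟩ := exists_zeta (F := F) hF hrq
  have hζr : (ζ : F) ^ r = 1 := by rw [← Units.val_pow_eq_pow_val, ← hζ, pow_orderOf_eq_one, Units.val_one]
  have hζ1 : (ζ : F) ≠ 1 := by
    intro h
    have : ζ = 1 := Units.ext h
    rw [this, orderOf_one] at hζ
    exact hr.one_lt.ne hζ
  have hζq : σ (ζ : F) * (ζ : F) = 1 := by
    rw [hσ, ← pow_succ]
    obtain ⟨c, hc⟩ := hrq
    rw [hc, pow_mul, hζr, one_pow]
  refine ⟨?_, ?_, bound p hF ht⟩
  · have h0 : (0 : ℕ) < n := by omega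
    have h1 : (1 : ℕ) < n := by omega
    obtain ⟨g, hg⟩ := exists_orderOf_mul σ hσ hσ2 (hex hF) hr hrn (ζ : F) hζr hζ1 hζq (1 : SU n F q)
      (Matrix.single ⟨0, h0⟩ ⟨0, h0⟩ 1) (by simp)
      (by
        intro h
        have := congrFun (congrFun h ⟨0, h0⟩) ⟨0, h0⟩
        simp at this)
      (by
        intro h
        have := congrFun (congrFun h ⟨1, h1⟩) ⟨1, h1⟩
        simp at this)
      (by
        ext i j
        rw [adj_apply, Matrix.single_apply, Matrix.single_apply]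
        by_cases h1 : (⟨0, h0⟩ : Fin n) = i <;> by_cases h2 : (⟨0, h0⟩ : Fin n) = j <;> simp [h1, h2])
      (by
        show _ * (1 : Matrix (Fin n) (Fin n) F) = (1 : Matrix (Fin n) (Fin n) F) * _
        rw [mul_one, one_mul])
      (by rw [QuotientGroup.mk_one, orderOf_one]; exact hr.one_lt.ne' ∘ Nat.dvd_one.mp)
    refine ⟨g, ?_⟩
    rw [hg, QuotientGroup.mk_one, orderOf_one, mul_one]
  · obtain ⟨N, hN⟩ : ∃ N : ℕ, (Odd n ∧ N * (q + 1) = q ^ n + 1) ∨ (Even n ∧ N * (q + 1) + 1 = q ^ n) := by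
      have hq2 : 2 ≤ q := Cfsg.Agent.H22.two_le_of_card_sq hF
      rcases Nat.even_or_odd n with h | h
      · have h1 : q + 1 ∣ q ^ n - 1 := by
          obtain ⟨m, hm⟩ := h
          have h2 : q ^ 2 - 1 ∣ (q ^ 2) ^ m - 1 := by simpa using Nat.sub_dvd_pow_sub_pow (q ^ 2) 1 m
          rw [show n = 2 * m by omega, pow_mul]
          refine Dvd.dvd.trans ?_ h2
          have := Nat.sq_sub_sq q 1
          rw [one_pow] at this
          rw [this]
          exact dvd_mul_right _ _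
        obtain ⟨N, hN⟩ := h1
        have hpos : 1 ≤ q ^ n := Nat.one_le_pow _ _ (by omega)
        exact ⟨N, Or.inr ⟨h, by rw [mul_comm, ← hN]; omega⟩⟩
      · obtain ⟨N, hN⟩ : q + 1 ∣ q ^ n + 1 := by simpa using h.nat_add_dvd_pow_add_pow q 1
        exact ⟨N, Or.inl ⟨h, by rw [hN, mul_comm]⟩⟩
    obtain ⟨τ, hτ⟩ := exists_torus p hF hσ hσ2 hσ1 (by omega) hN
    obtain ⟨υ, hυ⟩ := exists_unip p hF hσ hσ2 hσ1 (by omega) ht ht'
    refine ⟨τ, υ, hυ, ?_⟩
    intro g hg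
    obtain ⟨A, rfl⟩ := QuotientGroup.mk_surjective g
    have hA := (mem_SU_iff σ hσ hσ2 (A : Matrix.SpecialLinearGroup (Fin n) F)).1 A.2
    have hAK : ((A : Matrix.SpecialLinearGroup (Fin n) F) : Matrix (Fin n) (Fin n) F) ^ (orderOf A) = 1 := by
      have := pow_orderOf_eq_one A
      have h1 := congrArg (fun x : SU n F q => ((x : Matrix.SpecialLinearGroup (Fin n) F) : Matrix (Fin n) (Fin n) F)) this
      simp only [Subgroup.coe_pow, Matrix.SpecialLinearGroup.coe_pow] at h1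
      exact h1
    rcases primary_analysis p hF hσ hσ2 (by omega) _ hA (A : Matrix.SpecialLinearGroup (Fin n) F).det_coe (orderOf A)
      (orderOf_pos A) hAK N hN with ⟨e, he, he0, he1, hes, heA⟩ | h
    · left
      exact exists_orderOf_mul σ hσ hσ2 (hex hF) hr hrn (ζ : F) hζr hζ1 hζq A e he he0 he1 hes heA hg
    · right
      apply orderOf_dvd_of_pow_eq_one
      rw [← QuotientGroup.mk_pow, mk_eq_one_iff σ hσ hσ2 (hex hF)]
      rw [Subgroup.coe_pow, Matrix.SpecialLinearGroup.coe_pow, mul_comm (p ^ t)]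
      exact h _ t ht hτ

end

theorem result {F : Type*} [Field F] [Fintype F] (p a n q r m : ℕ) (hp : p.Prime) (ha : 1 ≤ a) (hq : q = p ^ a) (hF : Fintype.card F = q ^ 2)
    (hn : 3 ≤ n) (hn3 : ¬ (n = 3 ∧ q = 2)) (hr : r.Prime) (hrq : r ∣ q + 1) (hrn : ¬ r ∣ n) :
    Set.range (orderOf : Cfsg.PSU n F q × Cfsg.PSU n F q × Cfsg.PSU n F q × Multiplicative (Fin m → ZMod r) → ℕ) = Set.range (orderOf : Cfsg.PSU n F q × Cfsg.PSU n F q × Cfsg.PSU n F q → ℕ) ∧
    ((¬ ∃ j : ℕ, n - 1 = p ^ j) →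
      Set.range (orderOf : Cfsg.PSU n F q × Cfsg.PSU n F q × Multiplicative (Fin m → ZMod r) → ℕ) = Set.range (orderOf : Cfsg.PSU n F q × Cfsg.PSU n F q → ℕ)) := by
  haveI := Fact.mk hp
  haveI : CharP F p := by
    obtain ⟨p', hp'⟩ := CharP.exists F
    obtain ⟨m', hpr, hm'⟩ := FiniteField.card F p'
    rw [hF, hq, ← pow_mul] at hm'
    have h1 : p' ∣ p ^ (a * 2) := by rw [hm']; exact dvd_pow_self p' m'.pos.ne'
    have h2 : p' = p := (Nat.prime_dvd_prime_iff_eq hpr hp).1 (hpr.dvd_of_dvd_pow h1)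
    exact h2 ▸ hp'
  obtain ⟨σ, hσ, hσ2, hσ1⟩ := exists_conj (F := F) hF
  haveI : Finite (Matrix.SpecialLinearGroup (Fin n) F) := Subtype.finite
  haveI : Finite (SU n F q) := Subtype.finite
  haveI : Finite (PSU n F q) := Quotient.finite _
  obtain ⟨t, ht, ht'⟩ : ∃ t', n ≤ p ^ t' ∧ ∀ s, s < t' → p ^ s < n := by
    have hex : ∃ t, n ≤ p ^ t := ⟨n, (Nat.lt_pow_self (Fact.out : p.Prime).one_lt).le⟩
    classical
    refine ⟨Nat.find hex, Nat.find_spec hex, fun s hs => ?_⟩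
    have := Nat.find_min hex hs
    omega
  have hpq : p ∣ q := p_dvd_q p hF
  have hrp : r ≠ p := by
    rintro rfl
    have : r ∣ 1 := (Nat.dvd_add_right hpq).1 hrq
    exact hr.one_lt.ne' (Nat.dvd_one.mp this)
  have D := getData (F := F) p hF hσ hσ2 hσ1 hn hr hrq hrn ht ht'
  refine ⟨CfsgLib.SpecComb27.range_triple D hp hr m, fun hpow => ?_⟩
  refine CfsgLib.SpecComb27.range_pair D hp hr hrp ?_ m
  -- unipotent element commuting with a Hermitian idempotent
  obtain ⟨E, i1, i2, i3, S, u, i4, hE, hu, hnorm, hpt, hk⟩ := exists_unip_alg (σ := σ) p hσ1 hσ2 (k := n - 1) (by omega) t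
    (by omega) (fun s hs => by
      have h1 := ht' s hs
      have h2 : n - 1 ≠ p ^ s := fun h => hpow ⟨s, h⟩
      omega)
  have hE' : Module.finrank F (F × E) = n := by
    rw [Module.finrank_prod, Module.finrank_self, hE]; omega
  obtain ⟨b, hb⟩ := ((baseAlg hσ2).prod S).exists_su hσ hσ1 hσ2 (hex hF) hE'
  obtain ⟨-, hbx⟩ := hb ((1, u) : F × E)
  obtain ⟨g, hgc, -, hg⟩ := hbx (by
    show (σ 1 * 1, S.star u * u) = (1, 1)
    rw [map_one, mul_one, hu]) (by rw [norm_prod', map_one, hnorm, mul_one])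
  have hgo : orderOf (QuotientGroup.mk g : PSU n F q) = p ^ t := by
    apply orderOf_eq_of_forall
    intro k
    rw [hg]
    constructor
    · rintro ⟨c, hc⟩
      exact hk k ⟨c, congrArg Prod.snd hc⟩
    · rintro ⟨j, rfl⟩
      refine ⟨1, ?_⟩
      rw [map_one]
      exact Prod.ext (one_pow _) (by show u ^ _ = 1; rw [pow_mul, hpt, one_pow])
  obtain ⟨ζ, hζ⟩ := exists_zeta (F := F) hF hrq
  have hζr : (ζ : F) ^ r = 1 := by rw [← Units.val_pow_eq_pow_val, ← hζ, pow_orderOf_eq_one, Units.val_one]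
  have hζ1 : (ζ : F) ≠ 1 := by
    intro h
    have : ζ = 1 := Units.ext h
    rw [this, orderOf_one] at hζ
    exact hr.one_lt.ne hζ
  have hζq : σ (ζ : F) * (ζ : F) = 1 := by
    rw [hσ, ← pow_succ]
    obtain ⟨c, hc⟩ := hrq
    rw [hc, pow_mul, hζr, one_pow]
  obtain ⟨he, -⟩ := hb ((1, 0) : F × E)
  obtain ⟨w, hw⟩ := exists_orderOf_mul σ hσ hσ2 (hex hF) hr hrn (ζ : F) hζr hζ1 hζq g
    (Algebra.leftMulMatrix b ((1, 0) : F × E)) (by rw [← map_mul]; simp)
    (by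
      intro h
      have := Algebra.leftMulMatrix_injective b (h.trans (map_zero _).symm)
      exact one_ne_zero (congrArg Prod.fst this))
    (by
      intro h
      have := Algebra.leftMulMatrix_injective b (h.trans (map_one _).symm)
      exact zero_ne_one (congrArg Prod.snd this))
    (by
      rw [he]
      congr 1
      show (σ 1, S.star 0) = (1, 0)
      rw [map_one, map_zero])
    (by rw [hgc, ← map_mul, ← map_mul, mul_comm])
    (by
      rw [hgo]
      intro h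
      exact hrp ((Nat.prime_dvd_prime_iff_eq hr hp).1 (hr.dvd_of_dvd_pow h)))
  exact ⟨w, by rw [hw, hgo]⟩

end Cfsg.Agent.S2511
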