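import Cfsg.Statements.S2512
import Cfsg.Agent.LibSympSpec27
import Cfsg.Agent.LibSpecComb27
import Cfsg.Agent.LibH22Fin

set_option autoImplicit false
open Cfsg

namespace Cfsg.Agent.S2512

open CfsgLib.SympAlg27 Polynomial

theorem orderOf_eq_of_forall {G : Type*} [Group G] (g : G) (m : ℕ) (h : ∀ k : ℕ, g ^ k = 1 ↔ m ∣ k) : orderOf g = m :=
  Nat.dvd_antisymm (orderOf_dvd_of_pow_eq_one ((h m).2 dvd_rfl)) ((h _).1 (pow_orderOf_eq_one g))

theorem neg_one_ne_one' {F : Type*} [Field F] (h2 : (2 : F) ≠ 0) (R : Type*) [CommRing R] [Algebra F R] [Nontrivial R] :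
    (-1 : R) ≠ 1 := by
  intro h
  have h3 : (algebraMap F R) 2 = 0 := by
    rw [map_ofNat]; linear_combination -h
  exact h2 ((map_eq_zero_iff _ (algebraMap F R).injective).1 h3)

section

variable {F : Type*} [Field F] [Fintype F] (p : ℕ) [Fact p.Prime] [CharP F p]

include p in
theorem p_odd (h2 : (2 : F) ≠ 0) : Odd p := by
  rcases (Fact.out : p.Prime).eq_two_or_odd' with h | h
  · exfalso
    apply h2
    have := CharP.cast_eq_zero F p
    rw [h] at this
    exact_mod_cast this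
  · exact h

include p in
theorem coprime_of_dvd {d N : ℕ} (hd : 1 ≤ d) (hN : N ∣ Fintype.card F ^ d - 1 ∨ N ∣ Fintype.card F ^ d + 1) (t : ℕ) :
    N.Coprime (p ^ t) := by
  apply Nat.Coprime.pow_right
  obtain ⟨a, hp, ha⟩ := FiniteField.card F p
  have h1 : p ∣ Fintype.card F ^ d := by
    rw [ha, ← pow_mul]
    exact dvd_pow_self p (Nat.mul_ne_zero a.pos.ne' (by omega))
  have hpos : 1 ≤ (Fintype.card F) ^ d := Nat.one_le_pow _ _ Fintype.card_pos
  rw [Nat.coprime_comm, Nat.Prime.coprime_iff_not_dvd hp]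
  intro h
  have h3 : p ∣ 1 := by
    rcases hN with hN | hN
    · have := Nat.dvd_sub h1 (h.trans hN)
      rwa [Nat.sub_sub_self hpos] at this
    · exact (Nat.dvd_add_right h1).1 (h.trans hN)
  exact hp.one_lt.ne' (Nat.dvd_one.mp h3)

include p in
theorem exists_mixed (h2 : (2 : F) ≠ 0) {n d N t : ℕ} (hd : 1 ≤ d) (hdn : d < n) (hNodd : Odd N)
    (hN : N ∣ Fintype.card F ^ d - 1 ∨ N ∣ Fintype.card F ^ d + 1)
    (ht : 2 * (n - d) ≤ p ^ t) (ht' : ∀ s, s < t → p ^ s < 2 * (n - d)) :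
    ∃ g : PSp n F, orderOf g = 2 * N * p ^ t := by
  obtain ⟨E, i1, i2, i3, S, v, hE, hv, hvN, -⟩ := exists_torus_alg p hd hN
  obtain ⟨E', j1, j2, j3, S', w, jn, hE', hw, hwt⟩ := exists_unip_alg p h2 (k := n - d) (by omega) t ht ht'
  have hpo := p_odd (F := F) p h2
  have hf : Module.finrank F (E × E') = 2 * n := by
    rw [Module.finrank_prod, hE, hE']; omega
  have hu : ((-v, w) : E × E') * (S.prod S').star ((-v, w) : E × E') = 1 := by
    show ((-v) * S.star (-v), w * S'.star w) = (1, 1)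
    rw [map_neg, hw]
    congr 1
    linear_combination hv
  obtain ⟨g, -, hg⟩ := (S.prod S').exists_sp h2 (n := n) (by omega) hf _ hu
  haveI : Nontrivial E := by
    by_contra h
    rw [not_nontrivial_iff_subsingleton] at h
    have := Module.finrank_zero_of_subsingleton (R := F) (M := E)
    omega
  refine ⟨QuotientGroup.mk g, orderOf_eq_of_forall _ _ fun k => ?_⟩
  rw [hg]
  have hpow : ((-v, w) : E × E') ^ k = ((-v) ^ k, w ^ k) := rfl
  rw [hpow]
  constructor
  · intro h
    have h1 : (-v) ^ k = 1 ∧ w ^ k = 1 := by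
      rcases h with h | h
      · exact ⟨congrArg Prod.fst h, congrArg Prod.snd h⟩
      · exfalso
        have h3 : w ^ k = -1 := congrArg Prod.snd h
        have h4 : (w ^ k) ^ (p ^ t) = 1 := by
          rw [← pow_mul, mul_comm, pow_mul, ← hwt, pow_orderOf_eq_one, one_pow]
        rw [h3, (hpo.pow).neg_one_pow] at h4
        exact neg_one_ne_one' h2 E' h4
    have h3 : p ^ t ∣ k := by rw [← hwt]; exact orderOf_dvd_of_pow_eq_one h1.2
    have h4 : Even k := by
      by_contra hcon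
      rw [Nat.not_even_iff_odd] at hcon
      have h5 : ((-v) ^ k) ^ N = 1 := by rw [h1.1, one_pow]
      rw [← pow_mul, (hcon.mul hNodd).neg_pow, (hvN (k * N)).2 (dvd_mul_left _ _)] at h5
      exact neg_one_ne_one' h2 E h5
    have h5 : N ∣ k := by
      rw [← hvN, ← h4.neg_pow]; exact h1.1
    have c1 : Nat.Coprime 2 N := (Nat.coprime_two_left).2 hNodd
    have c2 : Nat.Coprime (2 * N) (p ^ t) :=
      Nat.Coprime.mul_left (Nat.coprime_two_left.2 hpo.pow) (coprime_of_dvd p hd hN t)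
    exact c2.mul_dvd_of_dvd_of_dvd (c1.mul_dvd_of_dvd_of_dvd h4.two_dvd h5) h3
  · intro h
    left
    have h3 : p ^ t ∣ k := (dvd_mul_left _ _).trans h
    have h4 : Even k := even_iff_two_dvd.2 ((dvd_mul_of_dvd_left (dvd_mul_right _ _) _).trans h)
    have h5 : N ∣ k := (dvd_mul_of_dvd_left (dvd_mul_left _ _) _).trans h
    rw [h4.neg_pow, (hvN k).2 h5, orderOf_dvd_iff_pow_eq_one.1 (by rw [hwt]; exact h3)]
    rfl

include p in
theorem exists_torus (h2 : (2 : F) ≠ 0) {n N : ℕ} (hn : 1 ≤ n)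
    (hN : N ∣ Fintype.card F ^ n - 1 ∨ N ∣ Fintype.card F ^ n + 1) :
    ∃ g : PSp n F, ∀ k : ℕ, g ^ k = 1 ↔ N ∣ 2 * k := by
  obtain ⟨E, i1, i2, i3, S, v, hE, hv, hvN, hv2⟩ := exists_torus_alg p hn hN
  obtain ⟨g, -, hg⟩ := S.exists_sp h2 (n := n) hn hE _ hv
  refine ⟨QuotientGroup.mk g, fun k => ?_⟩
  rw [hg, ← hvN, mul_comm, pow_mul]
  constructor
  · rintro (h | h) <;> rw [h] <;> ring
  · exact hv2 k

include p in
theorem exists_unip (h2 : (2 : F) ≠ 0) {n t : ℕ} (hn : 1 ≤ n) (ht : 2 * n ≤ p ^ t) (ht' : ∀ s, s < t → p ^ s < 2 * n) :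
    ∃ g : PSp n F, orderOf g = p ^ t := by
  obtain ⟨E', j1, j2, j3, S', w, jn, hE', hw, hwt⟩ := exists_unip_alg p h2 (k := n) hn t ht ht'
  have hpo := p_odd (F := F) p h2
  obtain ⟨g, -, hg⟩ := S'.exists_sp h2 (n := n) hn hE' _ hw
  refine ⟨QuotientGroup.mk g, orderOf_eq_of_forall _ _ fun k => ?_⟩
  rw [hg, ← hwt, orderOf_dvd_iff_pow_eq_one]
  constructor
  · rintro (h | h)
    · exact h
    · exfalso
      have h4 : (w ^ k) ^ (p ^ t) = 1 := by
        rw [← pow_mul, mul_comm, pow_mul, ← hwt, pow_orderOf_eq_one, one_pow]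
      rw [h, (hpo.pow).neg_one_pow] at h4
      have h3 : (algebraMap F E') 2 = 0 := by
        rw [map_ofNat]; linear_combination -h4
      exact h2 ((map_eq_zero_iff _ (algebraMap F E').injective).1 h3)
  · exact Or.inl

include p in
theorem bound {n t : ℕ} (ht : 2 * n ≤ p ^ t) :
    ∃ N : ℕ, N.Coprime p ∧ ∀ g : PSp n F, orderOf g ∣ p ^ t * N := by
  refine ⟨∏ d ∈ Finset.Icc 1 (n + n), (Fintype.card F ^ d - 1), ?_, ?_⟩
  · apply Nat.Coprime.prod_left
    intro d hd
    rw [Finset.mem_Icc] at hd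
    have := coprime_of_dvd (F := F) p hd.1 (Or.inl dvd_rfl) 1
    rwa [pow_one] at this
  · intro g
    obtain ⟨A, rfl⟩ := QuotientGroup.mk_surjective g
    apply orderOf_dvd_of_pow_eq_one
    let e : Matrix (Fin n ⊕ Fin n) (Fin n ⊕ Fin n) F ≃ₐ[F] Matrix (Fin (n + n)) (Fin (n + n)) F :=
      Matrix.reindexAlgEquiv F F finSumFinEquiv
    have hA : (e (A : Matrix (Fin n ⊕ Fin n) (Fin n ⊕ Fin n) F)) ^
        (p ^ t * ∏ d ∈ Finset.Icc 1 (n + n), (Fintype.card F ^ d - 1)) = 1 := by
      apply CfsgLib.SpecLin27.matrix_pow_eq_one p _ _ t _ (by omega) (dvd_mul_right _ _)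
      · intro f hf hfA
        apply Dvd.dvd.mul_left
        apply Finset.dvd_prod_of_mem (fun d => Fintype.card F ^ d - 1)
        rw [Finset.mem_Icc]
        refine ⟨hf.natDegree_pos, ?_⟩
        have h5 := Polynomial.natDegree_le_of_dvd hfA (Matrix.charpoly_monic _).ne_zero
        rwa [Matrix.charpoly_natDegree_eq_dim, Fintype.card_fin] at h5
      · have h1 : e (A : Matrix (Fin n ⊕ Fin n) (Fin n ⊕ Fin n) F) * e ((A⁻¹ : Matrix.symplecticGroup (Fin n) F) : Matrix (Fin n ⊕ Fin n) (Fin n ⊕ Fin n) F) = 1 := by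
          rw [← map_mul, show (A : Matrix (Fin n ⊕ Fin n) (Fin n ⊕ Fin n) F) * ((A⁻¹ : Matrix.symplecticGroup (Fin n) F) : Matrix (Fin n ⊕ Fin n) (Fin n ⊕ Fin n) F) = 1 from congrArg Subtype.val (mul_inv_cancel A), map_one]
        have h2 := congrArg Matrix.det h1
        rw [Matrix.det_mul, Matrix.det_one] at h2
        exact left_ne_zero_of_mul_eq_one h2
    rw [← QuotientGroup.mk_pow, QuotientGroup.eq_one_iff]
    have : A ^ (p ^ t * ∏ d ∈ Finset.Icc 1 (n + n), (Fintype.card F ^ d - 1)) = 1 := by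
      apply Subtype.ext
      apply e.injective
      show e ((A : Matrix (Fin n ⊕ Fin n) (Fin n ⊕ Fin n) F) ^ _) = e 1
      rw [map_pow, hA, map_one]
    rw [this]
    exact Subgroup.one_mem _

include p in
theorem getData (h2 : (2 : F) ≠ 0) {n t : ℕ} (hn : 2 ≤ n) (ht : 2 * n ≤ p ^ t) (ht' : ∀ s, s < t → p ^ s < 2 * n) :
    CfsgLib.SpecComb27.Data (PSp n F) p 2 t := by
  haveI : Finite (Matrix.symplecticGroup (Fin n) F) := Subtype.finite
  haveI : Finite (PSp n F) := Quotient.finite _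
  have hpo := p_odd (F := F) p h2
  have hq1 : 1 < Fintype.card F := Fintype.one_lt_card
  have hqodd : Odd (Fintype.card F) := Cfsg.Agent.H22.odd_of_two_ne_zero h2
  have hmin : ∀ m : ℕ, 1 ≤ m → ∃ t', 2 * m ≤ p ^ t' ∧ ∀ s, s < t' → p ^ s < 2 * m := by
    intro m hm
    have hex : ∃ t, 2 * m ≤ p ^ t := ⟨2 * m, (Nat.lt_pow_self (Fact.out : p.Prime).one_lt).le⟩
    classical
    refine ⟨Nat.find hex, Nat.find_spec hex, fun s hs => ?_⟩
    have := Nat.find_min hex hs
    omega
  refine ⟨?_, ?_, bound p ht⟩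
  · obtain ⟨t', h1, h3⟩ := hmin (n - 1) (by omega)
    obtain ⟨g, hg⟩ := exists_mixed (F := F) p h2 (n := n) (d := 1) (N := 1) (t := t') le_rfl (by omega) odd_one
      (Or.inl (one_dvd _)) h1 h3
    exact CfsgLib.SympAlg27.exists_orderOf_dvd g (by rw [hg, mul_one]; exact dvd_mul_right _ _)
  · obtain ⟨υ, hυ⟩ := exists_unip (F := F) p h2 (n := n) (by omega) ht ht'
    -- choose the torus with odd order in `PSp`
    obtain ⟨T, T', m, m', hT, hT', hTm, hTm', hdvd⟩ : ∃ T T' m m' : ℕ,
        (T ∣ Fintype.card F ^ n - 1 ∨ T ∣ Fintype.card F ^ n + 1) ∧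
        (T' ∣ Fintype.card F ^ n - 1 ∨ T' ∣ Fintype.card F ^ n + 1) ∧ T = 2 * m ∧ T' = 4 * m' ∧
        (∀ N : ℕ, (N ∣ Fintype.card F ^ n - 1 ∨ N ∣ Fintype.card F ^ n + 1) → N ∣ T ∨ N ∣ T') := by
      have hodd : Odd (Fintype.card F ^ n) := hqodd.pow
      have hpos : 1 ≤ (Fintype.card F) ^ n := Nat.one_le_pow _ _ Fintype.card_pos
      obtain ⟨c, hc⟩ := hodd
      rcases Nat.even_or_odd' c with ⟨e, he | he⟩
      · refine ⟨Fintype.card F ^ n + 1, Fintype.card F ^ n - 1, 2 * e + 1, e, Or.inr dvd_rfl, Or.inl dvd_rfl,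
          by omega, by omega, ?_⟩
        rintro N (h | h)
        · exact Or.inr h
        · exact Or.inl h
      · refine ⟨Fintype.card F ^ n - 1, Fintype.card F ^ n + 1, 2 * e + 1, e + 1, Or.inl dvd_rfl, Or.inr dvd_rfl,
          by omega, by omega, ?_⟩
        rintro N (h | h)
        · exact Or.inl h
        · exact Or.inr h
    obtain ⟨τ, hτ⟩ := exists_torus (F := F) p h2 (n := n) (by omega) hT
    obtain ⟨τ', hτ'⟩ := exists_torus (F := F) p h2 (n := n) (by omega) hT'
    have hτo : orderOf τ = m := orderOf_eq_of_forall _ _ fun k => by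
      rw [hτ, hTm]; exact Nat.mul_dvd_mul_iff_left (by norm_num)
    have hτ'o : orderOf τ' = 2 * m' := orderOf_eq_of_forall _ _ fun k => by
      rw [hτ', hTm', show 4 * m' = 2 * (2 * m') by ring]; exact Nat.mul_dvd_mul_iff_left (by norm_num)
    refine ⟨τ, υ, hυ, ?_⟩
    intro g hg
    have hgodd : Odd (orderOf g) := by
      rw [← Nat.not_even_iff_odd, even_iff_two_dvd]; exact hg
    -- choose a lift of odd order
    obtain ⟨A, hA, hAk⟩ : ∃ A : Matrix.symplecticGroup (Fin n) F, (QuotientGroup.mk A : PSp n F) = g ∧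
        A ^ (orderOf g) = 1 := by
      obtain ⟨A, hA⟩ := QuotientGroup.mk_surjective g
      have h1 : (QuotientGroup.mk (A ^ orderOf g) : PSp n F) = 1 := by
        rw [QuotientGroup.mk_pow]
        show (QuotientGroup.mk A : PSp n F) ^ orderOf g = 1
        rw [show (QuotientGroup.mk A : PSp n F) = g from hA, pow_orderOf_eq_one]
      rw [mk_eq_one_iff (by omega)] at h1
      rcases h1 with h1 | h1
      · exact ⟨A, hA, Subtype.ext h1⟩
      · have hneg : (-1 : Matrix (Fin n ⊕ Fin n) (Fin n ⊕ Fin n) F) ∈ Matrix.symplecticGroup (Fin n) F := by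
          have := (Cfsg.Agent.H22.smul_one_mem_sp_iff (F := F) (m := n) (by omega) (a := -1)).2 (by ring)
          rwa [neg_smul, one_smul] at this
        let Z : Matrix.symplecticGroup (Fin n) F := ⟨-1, hneg⟩
        have hZ : (QuotientGroup.mk Z : PSp n F) = 1 := (mk_eq_one_iff (by omega) Z).2 (Or.inr rfl)
        have hZc : Commute Z A := by
          apply Subtype.ext
          show (-1 : Matrix (Fin n ⊕ Fin n) (Fin n ⊕ Fin n) F) * A = A * (-1)
          simp
        refine ⟨Z * A, ?_, ?_⟩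
        · rw [QuotientGroup.mk_mul, hZ, one_mul]; exact hA
        · rw [hZc.mul_pow]
          apply Subtype.ext
          show (-1 : Matrix (Fin n ⊕ Fin n) (Fin n ⊕ Fin n) F) ^ orderOf g * ((A ^ orderOf g : Matrix.symplecticGroup (Fin n) F) : Matrix (Fin n ⊕ Fin n) (Fin n ⊕ Fin n) F) = 1
          rw [h1, hgodd.neg_one_pow]; simp
    have hcase := analysis p h2 (n := n) (by omega) A (orderOf g) hgodd hAk
    rcases hcase with ⟨z, hzz, hz1, hz2, hzA⟩ | h | ⟨d, i, N, hd, hi, hdi, hNodd, hN, hAN⟩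
    · left
      refine ⟨QuotientGroup.mk (z * A), orderOf_eq_of_forall _ _ fun k => ?_⟩
      have hzA' : Commute z A := hzA
      have hz1' : (QuotientGroup.mk z : PSp n F) ≠ 1 := by
        intro h
        rcases (mk_eq_one_iff (by omega) z).1 h with h | h
        · exact hz1 h
        · exact hz2 h
      have hzo : orderOf (QuotientGroup.mk z : PSp n F) = 2 := by
        apply orderOf_eq_prime
        · rw [← QuotientGroup.mk_pow, pow_two, hzz]; rfl
        · exact hz1'
      have hco : Commute (QuotientGroup.mk z : PSp n F) (QuotientGroup.mk A : PSp n F) := by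
        rw [Commute, SemiconjBy, ← QuotientGroup.mk_mul, hzA, QuotientGroup.mk_mul]
      rw [QuotientGroup.mk_mul, ← orderOf_dvd_iff_pow_eq_one,
        hco.orderOf_mul_eq_mul_orderOf_of_coprime (by rw [hzo, hA]; exact Nat.coprime_two_left.2 hgodd), hzo, hA]
    · right
      have h1 := h t ht
      have h3 : g ^ (p ^ t) = 1 := by
        rw [← hA, ← QuotientGroup.mk_pow, h1]; rfl
      exact (orderOf_dvd_of_pow_eq_one h3).mul_right _
    · by_cases hdn : d = n
      · have hi1 : i = 1 := by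
          have : n * i ≤ n * 1 := by rw [← hdn]; omega
          have := Nat.le_of_mul_le_mul_left this (by omega)
          omega
        have h1 := hAN 0 (by rw [hi1, pow_zero])
        rw [pow_zero, mul_one] at h1
        have h3 : orderOf g ∣ N := by
          apply orderOf_dvd_of_pow_eq_one
          rw [← hA, ← QuotientGroup.mk_pow, h1]; rfl
        rw [hdn] at hN
        rcases hdvd N hN with h4 | h4
        · right
          rw [hτo]
          have h5 : orderOf g ∣ 2 * m := by rw [← hTm]; exact h3.trans h4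
          exact ((Nat.coprime_two_right.2 hgodd).dvd_of_dvd_mul_left h5).mul_left _
        · left
          have h5 : orderOf g ∣ 4 * m' := by rw [← hTm']; exact h3.trans h4
          have h6 : orderOf g ∣ m' := by
            have : Nat.Coprime (orderOf g) 4 := by
              have := (Nat.coprime_two_right.2 hgodd).pow_right 2
              simpa using this
            exact this.dvd_of_dvd_mul_left h5
          exact CfsgLib.SympAlg27.exists_orderOf_dvd τ' (by rw [hτ'o]; exact Nat.mul_dvd_mul_left 2 h6)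
      · left
        have hdn' : d < n := by
          rcases lt_or_eq_of_le (show d ≤ n by nlinarith) with h | h
          · exact h
          · exact absurd h hdn
        obtain ⟨t', h1, h3⟩ := hmin (n - d) (by omega)
        obtain ⟨g', hg'⟩ := exists_mixed (F := F) p h2 (n := n) (d := d) (N := N) (t := t') hd hdn' hNodd hN h1 h3
        have hit : i ≤ p ^ t' := by
          refine le_trans ?_ h1
          by_contra hcon
          push Not at hcon
          -- `2 (n - d) < i`, `d * i ≤ n`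
          have : d * (2 * (n - d) + 1) ≤ n := le_trans (Nat.mul_le_mul_left d (by omega)) hdi
          obtain ⟨c, hc⟩ : ∃ c, n = d + c + 1 := ⟨n - d - 1, by omega⟩
          have hc' : n - d = c + 1 := by omega
          rw [hc', hc] at this
          nlinarith
        have h4 := hAN t' hit
        have h5 : orderOf g ∣ N * p ^ t' := by
          apply orderOf_dvd_of_pow_eq_one
          rw [← hA, ← QuotientGroup.mk_pow, h4]; rfl
        exact CfsgLib.SympAlg27.exists_orderOf_dvd g' (by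
          rw [hg', mul_assoc]; exact Nat.mul_dvd_mul_left 2 h5)

end

theorem result {F : Type*} [Field F] [Fintype F] (p a n m : ℕ) (hp : p.Prime) (ha : 1 ≤ a) (hF : Fintype.card F = p ^ a) (hodd : Odd (Fintype.card F))
    (hn : 2 ≤ n) :
    Set.range (orderOf : Cfsg.PSp n F × Cfsg.PSp n F × Cfsg.PSp n F × Multiplicative (Fin m → ZMod 2) → ℕ) = Set.range (orderOf : Cfsg.PSp n F × Cfsg.PSp n F × Cfsg.PSp n F → ℕ) ∧
    ((¬ ∃ j : ℕ, 2 * n - 1 = p ^ j) →
      Set.range (orderOf : Cfsg.PSp n F × Cfsg.PSp n F × Multiplicative (Fin m → ZMod 2) → ℕ) = Set.range (orderOf : Cfsg.PSp n F × Cfsg.PSp n F → ℕ)) := by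
  haveI := Fact.mk hp
  haveI : CharP F p := by
    obtain ⟨p', hp'⟩ := CharP.exists F
    obtain ⟨m', hpr, hm'⟩ := FiniteField.card F p'
    rw [hF] at hm'
    have h1 : p' ∣ p ^ a := by rw [hm']; exact dvd_pow_self p' m'.pos.ne'
    have h2 : p' = p := (Nat.prime_dvd_prime_iff_eq hpr hp).1 (hpr.dvd_of_dvd_pow h1)
    exact h2 ▸ hp'
  have h2 : (2 : F) ≠ 0 := Cfsg.Agent.H22.two_ne_zero_of_odd hodd
  have hpo := p_odd (F := F) p h2
  haveI : Finite (Matrix.symplecticGroup (Fin n) F) := Subtype.finite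
  haveI : Finite (PSp n F) := Quotient.finite _
  obtain ⟨t, ht, ht'⟩ : ∃ t', 2 * n ≤ p ^ t' ∧ ∀ s, s < t' → p ^ s < 2 * n := by
    have hex : ∃ t, 2 * n ≤ p ^ t := ⟨2 * n, (Nat.lt_pow_self (Fact.out : p.Prime).one_lt).le⟩
    classical
    refine ⟨Nat.find hex, Nat.find_spec hex, fun s hs => ?_⟩
    have := Nat.find_min hex hs
    omega
  have D := getData (F := F) p h2 (n := n) hn ht ht'
  refine ⟨CfsgLib.SpecComb27.range_triple D hp Nat.prime_two m, fun hpow => ?_⟩
  refine CfsgLib.SpecComb27.range_pair D hp Nat.prime_two ?_ ?_ m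
  · rintro rfl
    exact absurd hpo (by decide)
  · obtain ⟨g, hg⟩ := exists_mixed (F := F) p h2 (n := n) (d := 1) (N := 1) (t := t) le_rfl (by omega) odd_one
      (Or.inl (one_dvd _)) (by omega) (fun s hs => by
        have h1 := ht' s hs
        have h3 : 2 * n - 1 ≠ p ^ s := fun h => hpow ⟨s, h⟩
        have h4 : Odd (p ^ s) := hpo.pow
        obtain ⟨c, hc⟩ := h4
        omega)
    exact ⟨g, by rw [hg, mul_one]⟩

end Cfsg.Agent.S2512
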