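import Cfsg.Statements.S2513
import Mathlib
import Cfsg.Agent.LibSpecLin27

set_option autoImplicit false
open Cfsg

namespace Cfsg.Agent.S2513

open CfsgLib.SpecLin27

theorem eq_one_of_ne_zero {F : Type*} [Field F] [Fintype F] (hF : Fintype.card F = 2) (c : F) (hc : c ≠ 0) : c = 1 := by
  have := FiniteField.pow_card_sub_one_eq_one c hc
  rw [hF] at this
  simpa using this

theorem exists_of_unit {F : Type*} [Field F] [Fintype F] (hF : Fintype.card F = 2) {n : ℕ} (hn : 1 ≤ n)
    (E : Type*) [CommRing E] [Algebra F E] [Module.Finite F E] (hE : Module.finrank F E = n) (x y : E) (hxy : x * y = 1) :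
    ∃ g : Matrix.ProjectiveSpecialLinearGroup (Fin n) F, ∀ k : ℕ, g ^ k = 1 ↔ x ^ k = 1 := by
  have b : Module.Basis (Fin n) F E := (Module.finBasisOfFinrankEq F E hE)
  have hnt : Nontrivial E := Module.nontrivial_of_finrank_pos (R := F) (by omega)
  have hnorm : Algebra.norm F x = 1 := by
    apply eq_one_of_ne_zero hF
    intro h
    have := congrArg (Algebra.norm F) hxy
    rw [map_mul, h, zero_mul, map_one] at this
    exact zero_ne_one this
  obtain ⟨g, -, hg⟩ := exists_psl_of_algebra E b x hnorm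
  refine ⟨QuotientGroup.mk g, fun k => ?_⟩
  rw [hg]
  constructor
  · rintro ⟨c, hc⟩
    have hc0 : c ≠ 0 := by
      rintro rfl
      rw [map_zero] at hc
      have : x ^ k * y ^ k = 1 := by rw [← mul_pow, hxy, one_pow]
      rw [hc, zero_mul] at this
      exact zero_ne_one this
    rw [hc, eq_one_of_ne_zero hF c hc0, map_one]
  · intro h
    exact ⟨1, by rw [h, map_one]⟩

theorem exists_gen {K : Type*} [Field K] [Finite K] : ∃ x y : K, x * y = 1 ∧ ∀ k : ℕ, x ^ k = 1 → Nat.card K - 1 ∣ k := by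
  obtain ⟨g, hg⟩ := IsCyclic.exists_generator (α := Kˣ)
  refine ⟨g, (g⁻¹ : Kˣ), by simp, fun k hk => ?_⟩
  have h1 : g ^ k = 1 := by
    ext; simpa using hk
  have h2 : orderOf g = Nat.card Kˣ := orderOf_eq_card_of_forall_mem_zpowers hg
  have h3 : Nat.card Kˣ = Nat.card K - 1 := Nat.card_units K
  rw [← h3, ← h2]
  exact orderOf_dvd_of_pow_eq_one h1

theorem exists_pair {F : Type*} [Field F] [Fintype F] (hF : Fintype.card F = 2) [CharP F 2] {n : ℕ} (hn : 1 ≤ n) (j : ℕ)
    (hj : 2 * j ≤ n) :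
    ∃ g : Matrix.ProjectiveSpecialLinearGroup (Fin n) F, ∀ k : ℕ, g ^ k = 1 →
      (2 ^ (n - j) - 1 ∣ k ∧ (j ≠ 0 → 2 ^ j - 1 ∣ k)) := by
  haveI : Fact (Nat.Prime 2) := ⟨Nat.prime_two⟩
  have hFc : Nat.card F = 2 := by rw [Nat.card_eq_fintype_card, hF]
  rcases Nat.eq_zero_or_pos j with rfl | hj0
  · haveI : NeZero n := ⟨by omega⟩
    let K := FiniteField.Extension F 2 n
    obtain ⟨x, y, hxy, hx⟩ := exists_gen (K := K)
    obtain ⟨g, hg⟩ := exists_of_unit hF hn K (FiniteField.finrank_extension F 2 n) x y hxy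
    refine ⟨g, fun k hk => ⟨?_, fun h => absurd rfl h⟩⟩
    have := hx k ((hg k).1 hk)
    rwa [FiniteField.natCard_extension, hFc] at this
  · haveI : NeZero j := ⟨by omega⟩
    haveI : NeZero (n - j) := ⟨by omega⟩
    let K := FiniteField.Extension F 2 (n - j)
    let K' := FiniteField.Extension F 2 j
    obtain ⟨x, y, hxy, hx⟩ := exists_gen (K := K)
    obtain ⟨x', y', hxy', hx'⟩ := exists_gen (K := K')
    have hfin : Module.finrank F (K × K') = n := by
      rw [Module.finrank_prod, FiniteField.finrank_extension F 2 (n - j), FiniteField.finrank_extension F 2 j]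
      omega
    obtain ⟨g, hg⟩ := exists_of_unit hF hn (K × K') hfin (x, x') (y, y') (by simp [hxy, hxy'])
    refine ⟨g, fun k hk => ?_⟩
    have h1 := (hg k).1 hk
    have h2 : x ^ k = 1 := congrArg Prod.fst h1
    have h3 : x' ^ k = 1 := congrArg Prod.snd h1
    refine ⟨?_, fun _ => ?_⟩
    · have := hx k h2
      rwa [FiniteField.natCard_extension, hFc] at this
    · have := hx' k h3
      rwa [FiniteField.natCard_extension, hFc] at this

theorem main {F : Type*} [Field F] [Fintype F] (hF : Fintype.card F = 2) (n k : ℕ) (hn : 2 ≤ n) (hk : (n + 3) / 2 ≤ k) :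
    Set.range (orderOf : (Fin k → Matrix.ProjectiveSpecialLinearGroup (Fin n) F) → ℕ) =
      {m | m ∣ Monoid.exponent (Matrix.ProjectiveSpecialLinearGroup (Fin n) F)} := by
  haveI : Fact (Nat.Prime 2) := ⟨Nat.prime_two⟩
  haveI hchar : CharP F 2 := by
    obtain ⟨p, hp⟩ := CharP.exists F
    obtain ⟨m, hpr, hm⟩ := FiniteField.card F p
    rw [hF] at hm
    have h1 : p ∣ 2 := by rw [hm]; exact dvd_pow_self p m.pos.ne'
    have h2 : p = 2 := (Nat.prime_dvd_prime_iff_eq hpr Nat.prime_two).1 h1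
    exact h2 ▸ hp
  set L := Matrix.ProjectiveSpecialLinearGroup (Fin n) F with hL
  haveI : Finite L := by
    haveI : Finite (Matrix.SpecialLinearGroup (Fin n) F) := Subtype.finite
    exact Quotient.finite _
  have hex : Monoid.exponent L ≠ 0 := Monoid.exponent_ne_zero_of_finite
  -- the special element
  obtain ⟨t, ht, ht'⟩ : ∃ t, n ≤ 2 ^ t ∧ ∀ s, s < t → 2 ^ s < n := by
    refine ⟨Nat.find (p := fun t => n ≤ 2 ^ t) ⟨n, Nat.lt_two_pow_self.le⟩,
      Nat.find_spec (p := fun t => n ≤ 2 ^ t) _, fun s hs => ?_⟩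
    have := Nat.find_min _ hs
    omega
  obtain ⟨u, -, hu⟩ := exists_psl_unipotent (F := F) 2 (n := n) (by omega) t ht ht'
  have hpair : ∀ j : ℕ, ∃ g : L, 2 * j ≤ n → ∀ k : ℕ, g ^ k = 1 →
      (2 ^ (n - j) - 1 ∣ k ∧ (j ≠ 0 → 2 ^ j - 1 ∣ k)) := by
    intro j
    by_cases hj : 2 * j ≤ n
    · obtain ⟨g, hg⟩ := exists_pair hF (n := n) (by omega) j hj
      exact ⟨g, fun _ => hg⟩
    · exact ⟨1, fun h => absurd h hj⟩
  choose g hg using hpair
  let y : Fin k → L := fun i => if (i : ℕ) = 0 then QuotientGroup.mk u else g ((i : ℕ) - 1)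
  have hy : ∀ a : L, a ^ orderOf y = 1 := by
    intro a
    have hy1 : y ^ orderOf y = 1 := pow_orderOf_eq_one y
    have hpt : 2 ^ t ∣ orderOf y := by
      have h1 := congrFun hy1 ⟨0, by omega⟩
      rw [Pi.pow_apply, Pi.one_apply] at h1
      have h2 : y ⟨0, by omega⟩ = QuotientGroup.mk u := by simp [y]
      rw [h2] at h1
      rw [← hu]
      exact orderOf_dvd_of_pow_eq_one h1
    have hj : ∀ j, 2 * j ≤ n - 1 → (2 ^ (n - j) - 1 ∣ orderOf y ∧ (j ≠ 0 → 2 ^ j - 1 ∣ orderOf y)) := by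
      intro j hj
      have hjk : j + 1 < k := by omega
      have h1 := congrFun hy1 ⟨j + 1, hjk⟩
      rw [Pi.pow_apply, Pi.one_apply] at h1
      have h2 : y ⟨j + 1, hjk⟩ = g j := by simp [y]
      rw [h2] at h1
      exact hg j (by omega) _ h1
    have hd : ∀ d, 1 ≤ d → d ≤ n → 2 ^ d - 1 ∣ orderOf y := by
      intro d hd1 hdn
      by_cases h1 : 2 * d ≤ n - 1
      · exact (hj d h1).2 (by omega)
      · by_cases h2 : 2 * d = n
        · have h3 := (hj 0 (by omega)).1
          refine dvd_trans ?_ h3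
          rw [Nat.sub_zero, ← h2]
          have := Nat.pow_sub_one_dvd_pow_sub_one 2 (Dvd.intro_left 2 rfl : d ∣ 2 * d)
          exact this
        · have h3 := (hj (n - d) (by omega)).1
          have h4 : n - (n - d) = d := by omega
          rwa [h4] at h3
    obtain ⟨A, rfl⟩ := QuotientGroup.mk_surjective a
    have hA : (A : Matrix (Fin n) (Fin n) F) ^ orderOf y = 1 := by
      apply matrix_pow_eq_one 2 _ (by rw [A.det_coe]; exact one_ne_zero) t _ ht hpt
      intro f hf hfA
      rw [hF]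
      apply hd _ hf.natDegree_pos
      have h5 := Polynomial.natDegree_le_of_dvd hfA (Matrix.charpoly_monic _).ne_zero
      rwa [Matrix.charpoly_natDegree_eq_dim, Fintype.card_fin] at h5
    have hA' : A ^ orderOf y = 1 := by
      apply Subtype.ext
      rw [Matrix.SpecialLinearGroup.coe_pow, hA, Matrix.SpecialLinearGroup.coe_one]
    rw [← QuotientGroup.mk_pow, hA', QuotientGroup.mk_one]
  have hyex : orderOf y = Monoid.exponent L := by
    apply Nat.dvd_antisymm
    · apply orderOf_dvd_of_pow_eq_one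
      funext i
      rw [Pi.pow_apply, Monoid.pow_exponent_eq_one, Pi.one_apply]
    · exact Monoid.exponent_dvd_of_forall_pow_eq_one hy
  ext m
  constructor
  · rintro ⟨x, rfl⟩
    apply orderOf_dvd_of_pow_eq_one
    funext i
    rw [Pi.pow_apply, Monoid.pow_exponent_eq_one, Pi.one_apply]
  · intro hm
    obtain ⟨r, hr⟩ : m ∣ Monoid.exponent L := hm
    refine ⟨y ^ r, ?_⟩
    have hr0 : r ≠ 0 := by rintro rfl; exact hex (by rw [hr, mul_zero])
    rw [orderOf_pow_of_dvd hr0 (by rw [hyex, hr]; exact dvd_mul_left _ _), hyex, hr]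
    exact Nat.mul_div_cancel _ (Nat.pos_of_ne_zero hr0)

theorem result {F : Type*} [Field F] [Fintype F] (hF : Fintype.card F = 2) (n k : ℕ) (hn : 2 ≤ n) (hk : (n + 3) / 2 ≤ k) :
    Set.range (orderOf : (Fin k → Matrix.ProjectiveSpecialLinearGroup (Fin n) F) → ℕ) = Set.range (orderOf : (Fin ((n + 3) / 2) → Matrix.ProjectiveSpecialLinearGroup (Fin n) F) → ℕ) := by
  rw [main hF n k hn hk, main hF n _ hn le_rfl]

end Cfsg.Agent.S2513
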