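import Cfsg.Statements.S2648
import Cfsg.Agent.LibH22Wr5

set_option autoImplicit false
open Cfsg

namespace Cfsg.Agent.S2648
open CfsgLib.H22Wr

/-- Sylow subgroups are isomorphic across an isomorphism -/
theorem sylow_equiv {G G' : Type*} [Group G] [Group G'] [Finite G] (f : G ≃* G') (S : Sylow 2 G) (H : Subgroup G') (hp : IsPGroup 2 H)
    (hi : ¬ 2 ∣ H.index) : Nonempty ((S : Subgroup G) ≃* H) := by
  haveI : Fact (Nat.Prime 2) := ⟨Nat.prime_two⟩
  haveI : Finite G' := Finite.of_equiv _ f.toEquiv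
  have hp' : IsPGroup 2 (H.map f.symm.toMonoidHom) := hp.map _
  have hi' : ¬ 2 ∣ (H.map f.symm.toMonoidHom).index := by
    rw [Subgroup.index_map_of_bijective f.symm.bijective]; exact hi
  exact ⟨(S.equiv (hp'.toSylow hi')).trans (H.equivMapOfInjective f.symm.toMonoidHom f.symm.injective).symm⟩

theorem claim {F : Type*} [Field F] [Fintype F] (hF : Odd (Fintype.card F)) (j : ℕ) : ∀ n, 2 ^ j ≤ n → ED F (j + 1) n := by
  induction j with
  | zero =>
    intro n hn
    obtain ⟨S⟩ : Nonempty (Sylow 2 (Matrix.SpecialLinearGroup (Fin 2) F)) := inferInstance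
    obtain ⟨k, hk, ⟨e⟩⟩ := Cfsg.Agent.S0261.result hF S
    have hinj : Function.Injective ((dI F n).comp (Pi.constMonoidHom (Fin n) (Matrix.SpecialLinearGroup (Fin 2) F))) := by
      intro a b hab
      have hab' : dI F n (fun _ => a) = dI F n (fun _ => b) := hab
      have h1 := ((wr_sp F n).uniq (A := fun _ => a) (A' := fun _ => b) (π := 1) (π' := 1) (by rw [hab'])).1
      exact congrFun h1 ⟨0, by omega⟩
    refine ⟨(S : Subgroup (Matrix.SpecialLinearGroup (Fin 2) F)).map ((dI F n).comp (Pi.constMonoidHom (Fin n) _)), S.isPGroup'.map _, ?_⟩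
    rw [← ddn_map]
    intro hcon
    rw [Subgroup.map_eq_bot_iff_of_injective _ hinj, ← ddn_top_sub, ddn_top_equiv e] at hcon
    exact quat_ne k hk hcon
  | succ j ih =>
    intro n hn
    have h1 := step (r := n - 2 ^ j - 2 ^ j) (ih (2 ^ j) le_rfl)
    have h2 : 2 ^ j + 2 ^ j + (n - 2 ^ j - 2 ^ j) = n := by
      rw [pow_succ] at hn
      omega
    rwa [h2] at h1

/-- Let q be odd, F a field with q elements and n ≥ 1. A Sylow 2-subgroup R of the symplectic group Sp_{2n}(F) has derived length exactly k + 1, where 2^k ≤ 2n < 2^{k+1}: the (k+1)-st term of its derived series is trivial and the k-th is not. -/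
theorem result {F : Type*} [Field F] [Fintype F] [DecidableEq F] (q : ℕ) (hF : Fintype.card F = q) (hq : Odd q) (n : ℕ) (hn : 1 ≤ n) (R : Sylow 2 ↥(Matrix.symplecticGroup (Fin n) F)) : derivedSeries ↥(R : Subgroup ↥(Matrix.symplecticGroup (Fin n) F)) (Nat.log 2 (2 * n) + 1) = ⊥ ∧ derivedSeries ↥(R : Subgroup ↥(Matrix.symplecticGroup (Fin n) F)) (Nat.log 2 (2 * n)) ≠ ⊥ := by
  subst hF
  haveI : Fact (Nat.Prime 2) := ⟨Nat.prime_two⟩
  have hlog : Nat.log 2 (2 * n) = Nat.log 2 n + 1 := by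
    rw [mul_comm, Nat.log_mul_base (by norm_num) (by omega)]
  obtain ⟨f⟩ := nonempty_sp F n
  rw [hlog]
  constructor
  · obtain ⟨T, hT, hTg⟩ := CfsgLib.SOm.exists_T n
    rw [Nat.card_eq_fintype_card (α := Fin n), Fintype.card_fin] at hT
    obtain ⟨S⟩ : Nonempty (Sylow 2 (Matrix.SpecialLinearGroup (Fin 2) F)) := inferInstance
    obtain ⟨k, hk, ⟨e⟩⟩ := Cfsg.Agent.S0261.result hq S
    obtain ⟨hp, hi⟩ := CfsgLib.H22Wr.W_sylow hq n S T hT
    obtain ⟨e'⟩ := sylow_equiv f R _ hp hi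
    rw [derivedSeries_eq, ddn_top_equiv e', ddn_top_sub, show Nat.log 2 n + 1 + 1 = 2 + Nat.log 2 n by ring]
    apply ddn_W_bot
    · exact perm_ddn (by omega) T (IsPGroup.of_card hT)
    · rw [← ddn_top_sub, ddn_top_equiv e]
      exact quat_dd _
  · obtain ⟨H, hH, hd⟩ := claim hq (Nat.log 2 n) n (Nat.pow_log_le_self 2 (by omega))
    have hH' : IsPGroup 2 (H.map f.symm.toMonoidHom) := hH.map _
    obtain ⟨R', hR'⟩ := hH'.exists_le_sylow
    rw [Ne, derivedSeries_eq, ddn_top_equiv (R.equiv R'), ddn_top_sub]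
    intro hcon
    apply hd
    have h1 := ddn_mono hR' (Nat.log 2 n + 1)
    rw [hcon, ← ddn_map, le_bot_iff, Subgroup.map_eq_bot_iff_of_injective _ f.symm.injective] at h1
    exact h1

end Cfsg.Agent.S2648
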