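import Cfsg.Agent.LibLB27e
-- Template for statement S2730 (row 2730; see /opt/grader/pristine/manifest.json for weights).
-- Copy to Cfsg/Agent/S2730.lean and replace the sorry. The statement below is byte-identical to the frozen
-- statement Cfsg.CfsgFrozen.S2730 (Cfsg/Statements/S2730.lean; the theorem Cfsg.ltd21_psp_local_balance_failure_non_inner_diagonal);
-- the grader kernel-checks Cfsg.Agent.S2730.result against that frozen type. Keep the theorem IN THIS FILE
-- (a `result` declared elsewhere and merely imported here is not credited); helpers may live anywhere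
-- under Cfsg/Agent/.
import Cfsg.Statements.S2730
-- import your own Cfsg.Agent.* helpers here

set_option autoImplicit false
open Cfsg

namespace Cfsg.Agent.S2730

open CfsgLib.AutPSp27 CfsgLib.Semi27 CfsgLib.LB27 CfsgLib.H9027 Cfsg.Agent.H22 Matrix

theorem core_psp {F : Type*} [Field F] [Finite F] {r : ℕ} [Fact r.Prime] [CharP F r] {m : ℕ} (hm : 2 ≤ m) {p : ℕ} [Fact p.Prime]
    (hpr : p ≠ r) (hp : p ∣ Nat.card (Cfsg.PSp m F)) : Cfsg.pPrimeCore p (Cfsg.PSp m F) = ⊥ := by
  letI := Fintype.ofFinite F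
  haveI : Finite (Cfsg.PSp m F) := inferInstance
  by_cases h : m = 2 → 3 ≤ Fintype.card F
  · exact core_simple (psp_simple hm h) hp
  · push Not at h
    obtain ⟨rfl, h3⟩ := h
    have h2 : Fintype.card F = 2 := by
      have := Fintype.one_lt_card (α := F)
      omega
    haveI : Fact (Nat.Prime 2) := ⟨Nat.prime_two⟩
    haveI : CharP F 2 := charP_of_card_eq_prime_pow (f := 1) (by rw [h2, pow_one])
    have hr : r = 2 := CharP.eq F ‹CharP F r› ‹CharP F 2›
    obtain ⟨e⟩ := Cfsg.Agent.S0247.result h2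
    let e1 : Matrix.symplecticGroup (Fin 2) F ≃* Cfsg.PSp 2 F := MulEquiv.ofBijective (QuotientGroup.mk' (Subgroup.center (Matrix.symplecticGroup (Fin 2) F)))
      ⟨fun x y h => pi_inj_two (by omega) h, QuotientGroup.mk'_surjective _⟩
    have e2 : Equiv.Perm (Fin 6) ≃* Cfsg.PSp 2 F := e.symm.trans e1
    apply core_congr e2
    apply core_s6 (by rw [← hr]; exact hpr)
    rwa [Nat.card_congr e2.toEquiv]

theorem nontrivial_psp {F : Type*} [Field F] {r : ℕ} [Fact r.Prime] [CharP F r] {m : ℕ} (hm : 1 ≤ m) : Nontrivial (Cfsg.PSp m F) := by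
  obtain ⟨x, y, hxy⟩ := exists_pair_one (F := F) hm
  have hy : y ≠ 0 := by
    rintro rfl
    rw [map_zero] at hxy
    exact zero_ne_one hxy
  refine ⟨⟨(QuotientGroup.mk' (Subgroup.center (Matrix.symplecticGroup (Fin m) F))) (spT y 1), 1, fun h => ?_⟩⟩
  have h1 : (QuotientGroup.mk' (Subgroup.center (Matrix.symplecticGroup (Fin m) F))) (spT y 1) = (QuotientGroup.mk' (Subgroup.center (Matrix.symplecticGroup (Fin m) F))) 1 := by
    rw [h, map_one]
  have h2 := mk_inj (p := r) (k := 1) (by rw [pow_one, tr_pow]) (by rw [one_pow]) h1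
  exact one_ne_zero ((spT_eq_one_iff hy).1 h2)

theorem two_dvd_psp {F : Type*} [Field F] [Finite F] {m : ℕ} (hm : 2 ≤ m) (h2 : (2 : F) ≠ 0) : 2 ∣ Nat.card (Cfsg.PSp m F) := by
  have hm0 : 0 < m := by omega
  obtain ⟨d, hd⟩ : ∃ d : Fin m → F, d = fun i => if i = ⟨0, hm0⟩ then -1 else 1 := ⟨_, rfl⟩
  have hdd : Matrix.diagonal d * Matrix.diagonal d = 1 := by
    rw [diagonal_mul_diagonal, ← diagonal_one]
    congr 1
    ext i
    rw [hd]
    show (if i = ⟨0, _⟩ then (-1 : F) else 1) * (if i = ⟨0, _⟩ then (-1 : F) else 1) = 1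
    split_ifs <;> ring
  have hmem : (fromBlocks (Matrix.diagonal d) 0 0 (Matrix.diagonal d) : Matrix (Fin m ⊕ Fin m) (Fin m ⊕ Fin m) F) ∈ Matrix.symplecticGroup (Fin m) F := by
    rw [SymplecticGroup.mem_iff, Matrix.J, fromBlocks_transpose, fromBlocks_multiply, fromBlocks_multiply]
    simp only [diagonal_transpose, transpose_zero, mul_zero, zero_mul, add_zero, zero_add, mul_neg, neg_mul, mul_one, hdd, neg_zero]
  obtain ⟨s, hs⟩ : ∃ s : Matrix.symplecticGroup (Fin m) F, s = ⟨_, hmem⟩ := ⟨_, rfl⟩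
  have hss : s * s = 1 := by
    rw [hs]
    apply Subtype.ext
    show (fromBlocks (Matrix.diagonal d) 0 0 (Matrix.diagonal d) : Matrix (Fin m ⊕ Fin m) (Fin m ⊕ Fin m) F) * (fromBlocks (Matrix.diagonal d) 0 0 (Matrix.diagonal d)) = 1
    rw [fromBlocks_multiply]
    simp only [mul_zero, zero_mul, add_zero, zero_add, hdd, fromBlocks_one]
  have hne : (QuotientGroup.mk s : Cfsg.PSp m F) ≠ 1 := by
    intro h
    obtain ⟨a, ha⟩ := center_sp_scalar ((QuotientGroup.eq_one_iff s).1 h)
    have h0 : ∀ i : Fin m, d i = a := by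
      intro i
      have h1 := congrFun (congrFun ha (Sum.inl i)) (Sum.inl i)
      rw [hs] at h1
      simpa using h1
    have h3 := h0 ⟨0, by omega⟩
    have h4 := h0 ⟨1, by omega⟩
    rw [hd] at h3 h4
    simp only [if_true] at h3
    have h5 : (1 : F) = a := by
      rw [← h4]
      show (1 : F) = if (⟨1, _⟩ : Fin m) = ⟨0, hm0⟩ then -1 else 1
      rw [if_neg (by intro h; simp at h)]
    apply h2
    linear_combination h5 - h3
  haveI : Fact (Nat.Prime 2) := ⟨Nat.prime_two⟩
  have hord : orderOf (QuotientGroup.mk s : Cfsg.PSp m F) = 2 := by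
    refine orderOf_eq_prime ?_ hne
    rw [pow_two, ← QuotientGroup.mk_mul, hss]; rfl
  rw [← hord]
  exact orderOf_dvd_natCard _

theorem jSp_spT {m : ℕ} {F : Type*} [Field F] {σ : F ≃+* F} (v : Fin m ⊕ Fin m → fixF σ) (c : fixF σ) :
    jSp m σ (spT v c) = spT ((fixF σ).subtype ∘ v) ((fixF σ).subtype c) := by
  apply Subtype.ext
  rw [coe_jSp, coe_spT, coe_spT]
  ext i k
  have h1 := RingHom.map_mulVec (fixF σ).subtype (Matrix.J (Fin m) (fixF σ)) v k
  rw [mapJ] at h1
  rw [Matrix.map_apply]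
  unfold Cfsg.sympTransvection
  rw [Matrix.add_apply, Matrix.add_apply, Matrix.smul_apply, Matrix.smul_apply, vecMulVec_apply, vecMulVec_apply, smul_eq_mul, smul_eq_mul, map_add, map_mul, map_mul, h1]
  congr 1
  by_cases hik : i = k
  · subst hik
    rw [Matrix.one_apply_eq, Matrix.one_apply_eq, map_one]
  · rw [Matrix.one_apply_ne hik, Matrix.one_apply_ne hik, map_zero]

/-- the criterion for standard field automorphisms -/
theorem std {F : Type*} [Field F] [Fintype F] {r : ℕ} [Fact r.Prime] [CharP F r] {m : ℕ} (hm : 2 ≤ m) (A : Subgroup (MulAut (Cfsg.PSp m F))) (hinn : ∀ k : Cfsg.PSp m F, MulAut.conj k ∈ A)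
    {p : ℕ} [Fact p.Prime] (hpr : p ≠ r) (σ : F ≃+* F) (hσ : orderOf σ = p) :
    Cfsg.pPrimeCore p ↥(A ⊓ Subgroup.centralizer {phi m σ}) ≠ ⊥ ↔ Nat.Coprime p (Nat.card ↥(MonoidHom.eqLocus (phi m σ).toMonoidHom (MonoidHom.id (Cfsg.PSp m F)))) := by
  have hm1 : 1 ≤ m := by omega
  have hp1 : p.Prime := Fact.out
  have hσ1 : σ ≠ 1 := by
    rintro rfl
    rw [orderOf_one] at hσ
    exact hp1.one_lt.ne hσ
  have hσp : σ ^ p = 1 := by rw [← hσ, pow_orderOf_eq_one]
  have hx : orderOf (phi m σ) = p := by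
    refine orderOf_eq_prime ?_ ?_
    · rw [phi_pow, hσp, phi_one]
    · intro h
      exact hσ1 (phi_eq_one (p := r) hm1 h)
  obtain ⟨e⟩ := lamSp_equiv (F := F) (σ := σ) (p := r) hm1
  haveI : CharP (fixF σ) r := inferInstance
  haveI : Finite (fixF σ) := inferInstance
  have hform : ¬ (m = 2 ∧ r = 2) → ∀ y : MulAut (Cfsg.PSp m F), ∃ (g : Cfsg.GSp m F) (τ : F ≃+* F), y = rho m F g * phi m τ := by
    intro h y
    obtain ⟨g, τ, hg, h1⟩ := main (p := r) hm (fun h1 h2 => h ⟨h1, h2⟩) y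
    exact ⟨⟨g, hg⟩, τ, (isInd_iff hg τ y).1 h1⟩
  have hLi : ∀ l ∈ (lamSp m σ).range, ∃ k, MulAut.conj k = l := by
    rintro _ ⟨s, rfl⟩
    exact ⟨_, (lamSp_apply s).symm⟩
  have hLx : ∀ l ∈ (lamSp m σ).range, l * phi m σ = phi m σ * l := by
    rintro _ ⟨s, rfl⟩
    rw [lamSp_apply, conj_comm_iff (fun k h => psp_centerless (p := r) hm1 k h)]
    show (QuotientGroup.mk' (Subgroup.center (Matrix.symplecticGroup (Fin m) F))) (fS σ (jSp m σ s)) = _
    congr 1
    apply Subtype.ext
    rw [coe_fS, coe_jSp]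
    ext i j
    exact ((s : Matrix (Fin m ⊕ Fin m) (Fin m ⊕ Fin m) (fixF σ)) i j).2
  have hodd : p ≠ 2 → ∀ z, (∃ k, MulAut.conj k = z) → z * phi m σ = phi m σ * z → z ∈ (lamSp m σ).range := by
    rintro hp2 _ ⟨k, rfl⟩ hz
    obtain ⟨s, rfl⟩ := QuotientGroup.mk'_surjective _ k
    exact fixed_odd (r := r) hm1 (hp1.odd_of_ne_two hp2) hσp s hz
  apply lb_main' (fun k h => psp_centerless (p := r) hm1 k h) (phi m σ) hx A hinn (lamSp m σ).range hLi hLx
  · -- normality
    intro y hy l hl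
    by_cases hp2 : p = 2
    · obtain ⟨g, τ, rfl⟩ := hform (fun h => hpr (by rw [hp2, h.2])) y
      exact hnSp (p := r) hm1 g τ hy hl
    · apply hodd hp2
      · obtain ⟨k, rfl⟩ := hLi l hl
        refine ⟨y k, ?_⟩
        apply MulEquiv.ext
        intro z
        show y k * z * (y k)⁻¹ = y (k * (y⁻¹ z) * k⁻¹)
        rw [map_mul, map_mul, map_inv, MulAut.apply_inv_self]
      · have h1 := hLx l hl
        calc y * l * y⁻¹ * phi m σ = y * l * y⁻¹ * (phi m σ * y) * y⁻¹ := by group
          _ = y * (l * phi m σ) * y⁻¹ := by rw [← hy]; group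
          _ = y * phi m σ * l * y⁻¹ := by rw [h1]; group
          _ = phi m σ * (y * l * y⁻¹) := by rw [hy]; group
  · haveI := nontrivial_psp (F := fixF σ) (r := r) hm1
    exact e.symm.toEquiv.nontrivial
  · intro hd
    apply core_congr e
    apply core_psp (r := r) hm hpr
    by_cases hp2 : p = 2
    · rw [hp2]
      apply two_dvd_psp hm
      intro h
      apply hpr
      rw [hp2]
      exact ((Nat.prime_dvd_prime_iff_eq Fact.out Nat.prime_two).1 ((CharP.cast_eq_zero_iff (fixF σ) r 2).1 (by exact_mod_cast h))).symm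
    · rw [Nat.card_congr e.toEquiv]
      have h1 : (MulAut.conj : Cfsg.PSp m F →* MulAut (Cfsg.PSp m F)).range ⊓ Subgroup.centralizer {phi m σ} = (lamSp m σ).range := by
        ext z
        rw [mem_inf_cen]
        constructor
        · rintro ⟨⟨k, hk⟩, hz⟩
          exact hodd hp2 z ⟨k, hk⟩ hz
        · intro hz
          exact ⟨hLi z hz, hLx z hz⟩
      rw [h1] at hd
      exact hd
  · intro y hy hyl
    obtain ⟨g, τ, rfl⟩ : ∃ (g : Cfsg.GSp m F) (τ : F ≃+* F), y = rho m F g * phi m τ := by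
      by_cases h : m = 2 ∧ r = 2
      · obtain ⟨-, rfl⟩ := h
        obtain ⟨x0, y0, hxy⟩ := exists_pair_one (F := fixF σ) hm1
        have hy0 : y0 ≠ 0 := by
          rintro rfl
          rw [map_zero] at hxy
          exact zero_ne_one hxy
        have hT : (QuotientGroup.mk' (Subgroup.center (Matrix.symplecticGroup (Fin m) F))) (jSp m σ (spT y0 1)) ∈ TT m F := by
          refine ⟨(fixF σ).subtype ∘ y0, 1, ?_, one_ne_zero, ?_⟩
          · intro h
            apply hy0
            ext i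
            have := congrFun h i
            exact this
          · rw [jSp_spT, map_one]
        apply form_of_fix hm y hT
        have h1 := hyl _ ⟨spT y0 1, rfl⟩
        rw [lamSp_apply] at h1
        have h2 := (conj_comm_iff (fun k h => psp_centerless (p := 2) hm1 k h)).1 h1.symm
        rw [h2]
        exact hT
      · exact hform h y
    exact hcSp (p := r) hm1 g τ hy hyl


/-- A criterion for the failure of local balance in almost simple groups whose socle is a projective symplectic group PSp_{2m}(F) (m ≥ 2, (2m, |F|) ≠ (4, 2)). Let F be a finite field of characteristic r and K the (simple) group in question; let A be a group of automorphisms of K containing all inner automorphisms, and x ∈ A an automorphism of prime order p ≠ r that is not inner-diagonal (not induced by a conformal symplectic matrix). Then the largest normal subgroup of C_A(x) of order prime to p is nontrivial if and only if x is a field automorphism of K (conjugate under Aut(K) to a non-identity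 standard field automorphism) and p does not divide the number of fixed points of x on K. -/
theorem result {F : Type*} [Field F] [Fintype F] {r : ℕ} [Fact r.Prime] [CharP F r] {m : ℕ} (hm : 2 ≤ m) (hs : m = 2 → 3 ≤ Fintype.card F) (hK : IsSimpleGroup (Cfsg.PSp m F)) (A : Subgroup (MulAut (Cfsg.PSp m F))) (hinn : ∀ k : Cfsg.PSp m F, MulAut.conj k ∈ A) {p : ℕ} [Fact p.Prime] (hpr : p ≠ r) (x : MulAut (Cfsg.PSp m F)) (hxA : x ∈ A) (hord : orderOf x = p) (hnot : ¬ Cfsg.IsInnerDiagonalAutPSp x) :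
    Cfsg.pPrimeCore p ↥(A ⊓ Subgroup.centralizer {x}) ≠ ⊥ ↔ (Cfsg.IsFieldAutClassPSp x ∧ Nat.Coprime p (Nat.card ↥(MonoidHom.eqLocus x.toMonoidHom (MonoidHom.id (Cfsg.PSp m F))))) := by
  have hm1 : 1 ≤ m := by omega
  have hp1 : p.Prime := Fact.out
  haveI : Nonempty (Fin m ⊕ Fin m) := ⟨Sum.inl ⟨0, hm1⟩⟩
  have hxp : x ^ p = 1 := by rw [← hord, pow_orderOf_eq_one]
  obtain ⟨g, σ, hx⟩ : ∃ (g : Cfsg.GSp m F) (σ : F ≃+* F), x = rho m F g * phi m σ := by
    by_cases h : m = 2 ∧ r = 2
    · obtain ⟨rfl, rfl⟩ := h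
      exact form_of_odd x (hp1.odd_of_ne_two hpr) hxp
    · obtain ⟨g, τ, hg, h1⟩ := main (p := r) hm (fun h1 h2 => h ⟨h1, h2⟩) x
      exact ⟨⟨g, hg⟩, τ, (isInd_iff hg τ x).1 h1⟩
  have hσ : σ ≠ 1 := by
    rintro rfl
    exact hnot ⟨g, g.2, (isInd_iff g.2 (RingEquiv.refl F) x).2 hx⟩
  have hσp : σ ^ p = 1 := by
    have h1 := hxp
    rw [hx, semi_pow (fun g hg => gm_mem hg) (fun g => phi_mul_rho σ g), phi_pow] at h1
    exact (unique_one (p := r) hm1 h1).1
  have hoσ : orderOf σ = p := orderOf_eq_prime hσp hσ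
  obtain ⟨k, hk⟩ := lang_abs (ρ := rho m F) (φ := phi m σ) (fun g hg => gm_mem hg) (fun g => phi_mul_rho σ g)
    (rho_ker (p := r) hm1) hp1.pos hoσ (by rw [phi_pow, hσp, phi_one]) (fun g l k hk => hform (by omega) g l k hk) g (by rw [← hx]; exact hxp)
  rw [← hx] at hk
  have hcongr : MulAut.congr ((rho m F k)⁻¹ : MulAut (Cfsg.PSp m F)) x = phi m σ := by
    have h1 : MulAut.congr ((rho m F k)⁻¹ : MulAut (Cfsg.PSp m F)) x = (rho m F k)⁻¹ * x * (rho m F k) := by
      apply MulEquiv.ext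
      intro y
      show (rho m F k)⁻¹ (x (((rho m F k)⁻¹).symm y)) = (rho m F k)⁻¹ (x (rho m F k y))
      rfl
    rw [h1, hk]
    group
  obtain ⟨A', hA', h1, h2⟩ := lb_transport (p := p) ((rho m F k)⁻¹ : MulAut (Cfsg.PSp m F)) x A hinn
  rw [hcongr] at h1 h2
  rw [← h1, ← h2, std (r := r) hm A' hA' hpr σ hoσ]
  constructor
  · intro h
    refine ⟨⟨(rho m F k)⁻¹, σ, hσ, ?_⟩, h⟩
    rw [isStd_iff, hk]
    group
  · exact fun h => h.2

end Cfsg.Agent.S2730
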