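import Cfsg.Agent.LibRhoOdd27b
import Cfsg.Agent.LibLB27c
-- Template for statement S2731 (row 2731; see /opt/grader/pristine/manifest.json for weights).
-- Copy to Cfsg/Agent/S2731.lean and replace the sorry. The statement below is byte-identical to the frozen
-- statement Cfsg.CfsgFrozen.S2731 (Cfsg/Statements/S2731.lean; the theorem Cfsg.ltd21_omega_odd_dim_local_balance_failure_non_inner_diagonal);
-- the grader kernel-checks Cfsg.Agent.S2731.result against that frozen type. Keep the theorem IN THIS FILE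
-- (a `result` declared elsewhere and merely imported here is not credited); helpers may live anywhere
-- under Cfsg/Agent/.
import Cfsg.Statements.S2731
-- import your own Cfsg.Agent.* helpers here

set_option autoImplicit false
open Cfsg

namespace Cfsg.Agent.S2731

universe u in
set_option maxHeartbeats 1000000 in
open Cfsg.Agent.H22 CfsgLib.AutO27 CfsgLib.RhoO27 CfsgLib.Semi27 CfsgLib.H9027 CfsgLib.QForm27 CfsgLib.Lift27 CfsgLib.LB27 in
theorem aux {F : Type u} [Field F] [Fintype F] (hodd : Odd (Fintype.card F)) {m : ℕ} (hm : 3 ≤ m)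
    (q : (Unit ⊕ (Fin m ⊕ Fin m) → F) → F) (hq : q = ⇑(Cfsg.Agent.H22.qOdd m F))
    (A : Subgroup (MulAut (Cfsg.POmega F q))) (hinn : ∀ k : Cfsg.POmega F q, MulAut.conj k ∈ A) {p : ℕ} [Fact p.Prime] (x : MulAut (Cfsg.POmega F q)) (hord : orderOf x = p)
    (hnot : ¬ Cfsg.IsSimilarityInducedAutPOmega q x) :
    Cfsg.pPrimeCore p ↥(A ⊓ Subgroup.centralizer {x}) ≠ ⊥ ↔ (Cfsg.IsFieldAutClassPOmega q x ∧ Nat.Coprime p (Nat.card ↥(MonoidHom.eqLocus x.toMonoidHom (MonoidHom.id (Cfsg.POmega F q))))) := by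
  subst hq
  have h2 : (2 : F) ≠ 0 := two_ne_zero_of_odd hodd
  obtain ⟨e, ff, u, hG⟩ := good_qOdd (F := F) hm h2
  obtain ⟨⟨⟨g, σ⟩, hX⟩, rfl⟩ := R_surj hG x
  have hσ1 : σ ≠ 1 := by
    rintro rfl
    exact hnot ⟨g, hX, (isInd_iff hX _).2 rfl⟩
  have hp : p.Prime := Fact.out
  have hσp : σ ^ p = 1 := by
    have h1 : CfsgLib.RhoO27.R (qOdd m F) (⟨⟨g, σ⟩, hX⟩ ^ p) = 1 := by rw [map_pow, ← hord, pow_orderOf_eq_one]
    have h3 := ((R_ker' hG.gd _).1 h1).1
    have h4 : ∀ X : SP (qOdd m F), (X ^ p : SP (qOdd m F)).1.right = X.1.right ^ p := fun X =>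
      map_pow (SemidirectProduct.rightHom : GamL (Unit ⊕ (Fin m ⊕ Fin m)) F →* (F ≃+* F)) X.1 p
    rw [h4] at h3
    exact h3
  have hoσ : orderOf σ = p := orderOf_eq_prime hσp hσ1
  obtain ⟨hgl, hsplit⟩ := R_split ⟨⟨g, σ⟩, hX⟩ (std_odd σ)
  obtain ⟨k, hk⟩ := lang_abs (ρ := rho (GOs (qOdd m F)) le_rfl) (φ := ph (std_odd σ)) (fun g hg => gm_GOs (std_odd σ) hg)
    (fun g => ph_mul_rho _ _ (std_odd σ) (fun g hg => gm_GOs (std_odd σ) hg) g)
    (rho_ker _ _ hG) hp.pos hoσ (by rw [← hoσ, ← ph_order hG (std_odd σ), pow_orderOf_eq_one]) (fun g l k hk => hform_odd h2 g l k hk) ⟨g, hgl⟩ (by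
      rw [← hsplit, ← hord, pow_orderOf_eq_one])
  have hxk : CfsgLib.RhoO27.R (qOdd m F) ⟨⟨g, σ⟩, hX⟩ = rho (GOs (qOdd m F)) le_rfl k * ph (std_odd σ) * (rho (GOs (qOdd m F)) le_rfl k)⁻¹ := by
    rw [hsplit]
    exact hk
  generalize CfsgLib.RhoO27.R (qOdd m F) ⟨⟨g, σ⟩, hX⟩ = x at *
  obtain ⟨α, hα⟩ : ∃ α : MulAut (Cfsg.POmega F ⇑(qOdd m F)), α = (rho (GOs (qOdd m F)) le_rfl k)⁻¹ := ⟨_, rfl⟩
  have hax : MulAut.congr α x = ph (std_odd σ) := by
    have h1 : MulAut.congr α x = α * x * α⁻¹ := rfl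
    rw [h1, hxk, hα]; group
  obtain ⟨A', hA', h3, h4⟩ := lb_transport (p := p) α x A hinn
  rw [hax] at h3 h4
  haveI := Fintype.ofFinite (fixF σ)
  have h20 : (2 : fixF σ) ≠ 0 := fun h3 => h2 (congrArg Subtype.val h3)
  obtain ⟨e', f', u', hG'⟩ := good_qOdd (F := fixF σ) hm h20
  rw [← h3, ← h4, lb_field hG hG'.gd (qOdd_j (fixF σ).subtype) (std_odd σ) hoσ (fun _ => h2) A' hA']
  constructor
  · intro h
    exact ⟨⟨α, ph (std_odd σ), σ, hσ1, (isStd_iff (std_odd σ) _).2 rfl, hax⟩, h⟩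
  · exact fun h => h.2


/-- A criterion for the failure of local balance in almost simple groups whose socle is an odd-dimensional orthogonal group Ω_{2m+1}(F) (m ≥ 3, |F| odd; the form x₀² + Σ xᵢ yᵢ). Let F be a finite field of characteristic r and K the (simple) group in question; let A be a group of automorphisms of K containing all inner automorphisms, and x ∈ A an automorphism of prime order p ≠ r that is not inner-diagonal (not induced by a similarity of the form). Then the largest normal subgroup of C_A(x) of order prime to p is nontrivial if and only if x is a field automorphism of K (conjugate under Aut(K) to a non-identity standard field automorphism) and p does not divide the number of fixed points of x on K. -/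
theorem result {F : Type*} [Field F] [Fintype F] {r : ℕ} [Fact r.Prime] [CharP F r] (hodd : Odd (Fintype.card F)) {m : ℕ} (hm : 3 ≤ m) (hK : IsSimpleGroup (Cfsg.POmega F (Cfsg.quadFormOdd m F))) (A : Subgroup (MulAut (Cfsg.POmega F (Cfsg.quadFormOdd m F)))) (hinn : ∀ k : Cfsg.POmega F (Cfsg.quadFormOdd m F), MulAut.conj k ∈ A) {p : ℕ} [Fact p.Prime] (hpr : p ≠ r) (x : MulAut (Cfsg.POmega F (Cfsg.quadFormOdd m F))) (hxA : x ∈ A) (hord : orderOf x = p) (hnot : ¬ Cfsg.IsInnerDiagonalAutPOmegaOdd m x) :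
    Cfsg.pPrimeCore p ↥(A ⊓ Subgroup.centralizer {x}) ≠ ⊥ ↔ (Cfsg.IsFieldAutClassPOmega (Cfsg.quadFormOdd m F) x ∧ Nat.Coprime p (Nat.card ↥(MonoidHom.eqLocus x.toMonoidHom (MonoidHom.id (Cfsg.POmega F (Cfsg.quadFormOdd m F)))))) := by
  exact aux hodd hm _ (Cfsg.Agent.H22.coe_qOdd m).symm A hinn x hord hnot

end Cfsg.Agent.S2731
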