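import Cfsg.Statements.S2896
import Cfsg.Agent.LibLEP

set_option autoImplicit false
open Cfsg

namespace Cfsg.Agent.S2896




/-- Let p be a prime dividing the order of the finite group G, S a Sylow p-subgroup of G and X a subgroup of S. (i) If some nontrivial element z of the centre of X has F*(C_G(z)) = O_p(C_G(z)), then F*(N_G(X)) = O_p(N_G(X)). (ii) G has parabolic characteristic p if and only if F*(C_G(z)) = O_p(C_G(z)) for every nontrivial z ∈ Ω₁(Z(S)). (iii) If F*(C_G(z)) = O_p(C_G(z)) for every element z of S of order p, then G has local characteristic p. -/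
theorem result {G : Type*} [Group G] [Finite G] {p : ℕ} [Fact p.Prime] (hdiv : p ∣ Nat.card G) (S : Sylow p G) (X : Subgroup G) (hX : X ≤ (S : Subgroup G)) : (∀ z : G, z ≠ 1 → z ∈ X → (∀ x ∈ X, x * z = z * x) → Cfsg.generalizedFittingSubgroup ↥(Subgroup.centralizer ({z} : Set G)) = Cfsg.pCore p ↥(Subgroup.centralizer ({z} : Set G)) → Cfsg.generalizedFittingSubgroup ↥(Subgroup.normalizer (X : Set G)) = Cfsg.pCore p ↥(Subgroup.normalizer (X : Set G))) ∧ (Cfsg.IsOfParabolicCharacteristic p G ↔ ∀ z : G, z ≠ 1 → z ∈ Cfsg.omegaOne p ((S : Subgroup G) ⊓ Subgroup.centralizer ((S : Subgroup G) : Set G)) → Cfsg.generalizedFittingSubgroup ↥(Subgroup.centralizer ({z} : Set G)) = Cfsg.pCore p ↥(Subgroup.centralizer ({z} : Set G))) ∧ ((∀ z : G, z ∈ (S : Subgroup G) → orderOf z = p → Cfsg.generalizedFittingSubgroup ↥(Subgroup.centralizer ({z} : Set G)) = Cfsg.pCore p ↥(Subgroup.centralizer ({z} : Set G))) → Cfsg.IsOfLocalCharacteristic p G) := by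
  have hpar := CfsgLib.LE.parabolicChar_iff (p := p) S
  refine ⟨?_, ?_, ?_⟩
  · intro z _ hzX _ hC
    rw [CfsgLib.LE.gfitOf_eq_iff] at hC ⊢
    exact CfsgLib.LE.charPOf_normalizer_of_mem (S.2.to_le hX) hzX hC
  · rw [hpar]
    simp only [CfsgLib.LE.gfitOf_eq_iff]
  · intro h
    refine ⟨hdiv, ?_⟩
    intro T hT hT1
    rw [← CfsgLib.LE.charPOf_iff_type]
    obtain ⟨T', hT'⟩ := hT.exists_le_sylow
    obtain ⟨g, hg⟩ := MulAction.exists_smul_eq G T' S
    have hTS : (S : Subgroup G) = (T' : Subgroup G).map (MulAut.conj g).toMonoidHom := by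
      rw [← hg]; rfl
    obtain ⟨z, hz, hzo⟩ : ∃ z ∈ T, orderOf z = p := by
      have h4 := CfsgLib.LE.dvd_card_of_isPGroup_ne_bot hT hT1
      obtain ⟨x, hx⟩ := exists_prime_orderOf_dvd_card' p h4
      exact ⟨x, x.2, by rw [Subgroup.orderOf_coe]; exact hx⟩
    refine CfsgLib.LE.charPOf_normalizer_of_mem hT hz ?_
    have h1 := h (g * z * g⁻¹) (by rw [hTS]; exact ⟨z, hT' hz, rfl⟩) (by rw [CfsgLib.LE.orderOf_conj]; exact hzo)
    rw [CfsgLib.LE.gfitOf_eq_iff] at h1
    have h2 := CfsgLib.LE.charPOf_centralizer_conj (g := g⁻¹) h1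
    have h3 : g⁻¹ * (g * z * g⁻¹) * g⁻¹⁻¹ = z := by group
    rwa [h3] at h2

end Cfsg.Agent.S2896
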