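import Cfsg.Statements.S2897
import Cfsg.Agent.LibLEP2

set_option autoImplicit false
open Cfsg

namespace Cfsg.Agent.S2897




/-- Let p be a prime dividing the order of the finite group G, suppose G has parabolic characteristic p, let S be a Sylow p-subgroup of G and G₁ a normal subgroup of G. If Ω₁(Z(S ∩ G₁)) is nontrivial and contained in Ω₁(Z(S)), then G₁ has parabolic characteristic p. -/
theorem result {G : Type*} [Group G] [Finite G] {p : ℕ} [Fact p.Prime] (hdiv : p ∣ Nat.card G) (hG : Cfsg.IsOfParabolicCharacteristic p G) (S : Sylow p G) (G₁ : Subgroup G) [G₁.Normal] (hne : Cfsg.omegaOne p (((S : Subgroup G) ⊓ G₁) ⊓ Subgroup.centralizer (((S : Subgroup G) ⊓ G₁ : Subgroup G) : Set G)) ≠ ⊥) (hle : Cfsg.omegaOne p (((S : Subgroup G) ⊓ G₁) ⊓ Subgroup.centralizer (((S : Subgroup G) ⊓ G₁ : Subgroup G) : Set G)) ≤ Cfsg.omegaOne p ((S : Subgroup G) ⊓ Subgroup.centralizer ((S : Subgroup G) : Set G))) : Cfsg.IsOfParabolicCharacteristic p ↥G₁ := by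
  have h1 := (CfsgLib.LE.parabolicChar_iff (p := p) S).1 hG
  have h2 := CfsgLib.LE.sylow_inf_normal' S G₁
  obtain ⟨P, hP⟩ := h2
  rw [CfsgLib.LE.parabolicChar_iff P]
  intro z hz1 hz
  obtain ⟨hzZ, hzp⟩ := (CfsgLib.LE.mem_omegaOne_iff CfsgLib.LE.comm_of_le_center).1 hz
  have hz' : (z : G) ∈ Cfsg.omegaOne p (((S : Subgroup G) ⊓ G₁) ⊓ Subgroup.centralizer (((S : Subgroup G) ⊓ G₁ : Subgroup G) : Set G)) := by
    apply CfsgLib.LE.mem_omegaOne
    · rw [← hP]
      refine Subgroup.mem_inf.2 ⟨⟨z, hzZ.1, rfl⟩, ?_⟩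
      rw [CfsgLib.LE.mem_centralizer_map_subtype]
      exact hzZ.2
    · have := congrArg (Subtype.val) hzp
      simpa using this
  have h3 := h1 (z : G) (fun h => hz1 (Subtype.ext h)) (hle hz')
  have h4 := h3.normal (K := Subgroup.centralizer ({(z : G)} : Set G) ⊓ G₁) inf_le_left
    (CfsgLib.LE.le_normalizer_inf Subgroup.le_normalizer (by rw [Subgroup.normalizer_eq_top G₁]; exact le_top))
  rw [CfsgLib.LE.charPOf_iff_type] at h4 ⊢
  have e1 : Subgroup.centralizer ({z} : Set ↥G₁) =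
      (Subgroup.centralizer ({(z : G)} : Set G) ⊓ G₁).subgroupOf G₁ := by
    ext x
    rw [Subgroup.mem_subgroupOf, Subgroup.mem_inf, Subgroup.mem_centralizer_singleton_iff,
      Subgroup.mem_centralizer_singleton_iff]
    constructor
    · intro h
      exact ⟨congrArg Subtype.val h, x.2⟩
    · intro h
      exact Subtype.ext h.1
  rw [e1]
  exact CfsgLib.LE11Basic.charP_of_equiv (Subgroup.subgroupOfEquivOfLe inf_le_right).symm h4

end Cfsg.Agent.S2897
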