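import Cfsg.Statements.S2898
import Cfsg.Agent.LibLEP2

set_option autoImplicit false
open Cfsg

namespace Cfsg.Agent.S2898




/-- Let G be a finite group of even order with parabolic characteristic 2. If the centre of G ⧸ O(G) is trivial, then O(G) = 1. -/
theorem result {G : Type*} [Group G] [Finite G] (h2 : 2 ∣ Nat.card G) (hG : Cfsg.IsOfParabolicCharacteristic 2 G) [hN : (Cfsg.oddCore G).Normal] (hZ : Subgroup.center (G ⧸ Cfsg.oddCore G) = ⊥) : Cfsg.oddCore G = ⊥ := by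
  haveI : Fact (Nat.Prime 2) := ⟨Nat.prime_two⟩
  obtain ⟨S⟩ : Nonempty (Sylow 2 G) := inferInstance
  have hSne : (S : Subgroup G) ≠ ⊥ := by
    intro h
    have h1 := S.card_eq_multiplicity
    rw [h, Subgroup.card_bot] at h1
    have h2' : (Nat.card G).factorization 2 ≠ 0 := by
      intro h3
      rcases (Nat.factorization_eq_zero_iff _ _).1 h3 with h4 | h4 | h4
      · exact h4 Nat.prime_two
      · exact h4 h2
      · exact Nat.card_pos.ne' h4
    have h3 := Nat.one_lt_pow h2' (by norm_num : 1 < 2)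
    omega
  obtain ⟨z, hzS, hzo, hzc⟩ := CfsgLib.LE.exists_central_orderOf_eq S.2 hSne S.2 Subgroup.le_normalizer
  have hz2 : z ^ 2 = 1 := by rw [← hzo]; exact pow_orderOf_eq_one z
  have hz1 := CfsgLib.LE.ne_one_of_orderOf_eq hzo
  have hpar := (CfsgLib.LE.parabolicChar_iff (p := 2) S).1 hG
  have hOodd := CfsgLib.LE.coprime_card_pPrimeCore 2 G
  have hcop : ∀ x ∈ Cfsg.oddCore G, (orderOf x).Coprime 2 := by
    intro x hx
    have h1 : orderOf x ∣ Nat.card ↥(Cfsg.pPrimeCore 2 G) := by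
      have := orderOf_dvd_natCard (⟨x, hx⟩ : ↥(Cfsg.pPrimeCore 2 G))
      rwa [← Subgroup.orderOf_coe] at this
    exact Nat.Coprime.coprime_dvd_left h1 hOodd
  -- fixed-point-free
  have hfix : ∀ w : G, w ≠ 1 → w ∈ Cfsg.omegaOne 2 ((S : Subgroup G) ⊓ Subgroup.centralizer ((S : Subgroup G) : Set G)) →
      ∀ x ∈ Cfsg.oddCore G, x ∈ Subgroup.centralizer ({w} : Set G) → x = 1 := by
    intro w hw1 hw x hx hxc
    have hC := hpar w hw1 hw
    apply hC.eq_one hxc (hcop x hx)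
    rw [Subgroup.mem_centralizer_iff]
    intro y hy
    have hyC : y ∈ Subgroup.centralizer ({w} : Set G) := CfsgLib.LE.pCoreOf_le _ _ hy
    have h1 : y * x * y⁻¹ * x⁻¹ ∈ Cfsg.oddCore G := by
      apply Subgroup.mul_mem _ (hN.conj_mem x hx y) (Subgroup.inv_mem _ hx)
    have h2 : y * x * y⁻¹ * x⁻¹ ∈ Cfsg.pCoreOf 2 (Subgroup.centralizer ({w} : Set G)) := by
      have h3 := (Subgroup.mem_normalizer_iff.1 (CfsgLib.LE.le_normalizer_pCoreOf 2 _ hxc) y⁻¹).1 (Subgroup.inv_mem _ hy)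
      have h4 := Subgroup.mul_mem _ hy h3
      have h5 : y * (x * y⁻¹ * x⁻¹) = y * x * y⁻¹ * x⁻¹ := by group
      rwa [h5] at h4
    have h3 : y * x * y⁻¹ * x⁻¹ = 1 :=
      CfsgLib.LE.eq_one_of_coprime_of_isPGroup (CfsgLib.LE.pCoreOf_isPGroup _ _) h2 (hcop _ h1)
    calc y * x = (y * x * y⁻¹ * x⁻¹) * (x * y) := by group
      _ = x * y := by rw [h3, one_mul]
  have hzO : z ∈ Cfsg.omegaOne 2 ((S : Subgroup G) ⊓ Subgroup.centralizer ((S : Subgroup G) : Set G)) :=
    CfsgLib.LE.mem_omegaOne (Subgroup.mem_inf.2 ⟨hzS, hzc⟩) hz2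
  -- `z` inverts the core
  have hinv : ∀ w : G, w ^ 2 = 1 → (∀ x ∈ Cfsg.oddCore G, x ∈ Subgroup.centralizer ({w} : Set G) → x = 1) →
      ∀ x ∈ Cfsg.oddCore G, w * x * w⁻¹ = x⁻¹ := by
    intro w hw hf x hx
    let φ : ↥(Cfsg.oddCore G) →* ↥(Cfsg.oddCore G) := (MulAut.conjNormal (H := Cfsg.oddCore G) w).toMonoidHom
    have hφ : ∀ y : ↥(Cfsg.oddCore G), ((φ y : ↥(Cfsg.oddCore G)) : G) = w * (y : G) * w⁻¹ := fun y => rfl
    have h1 : MonoidHom.FixedPointFree φ := by
      intro y hy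
      apply Subtype.ext
      apply hf _ y.2
      rw [Subgroup.mem_centralizer_singleton_iff]
      have h2 := congrArg Subtype.val hy
      rw [hφ] at h2
      calc (y : G) * w = (w * (y : G) * w⁻¹) * w := by rw [h2]
        _ = w * y := by group
    have h2 : Function.Involutive φ := by
      intro y
      apply Subtype.ext
      rw [hφ, hφ]
      have h3 : w * w = 1 := by rw [← sq]; exact hw
      have h4 : w⁻¹ = w := inv_eq_of_mul_eq_one_left h3
      rw [h4]
      calc w * (w * (y : G) * w) * w = (w * w) * y * (w * w) := by group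
        _ = y := by rw [h3]; group
    have h3 := h1.coe_eq_inv_of_involutive h2
    have h4 := congrArg Subtype.val (congrFun h3 ⟨x, hx⟩)
    rw [hφ] at h4
    exact h4
  have hzinv := hinv z hz2 (hfix z hz1 hzO)
  by_contra hne
  -- `C_G(O)` has odd order
  set C := Subgroup.centralizer ((Cfsg.oddCore G : Subgroup G) : Set G) with hC
  have hSC : (S : Subgroup G) ⊓ C = ⊥ := by
    by_contra hne'
    have hn : (S : Subgroup G) ≤ Subgroup.normalizer (((S : Subgroup G) ⊓ C : Subgroup G) : Set G) :=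
      CfsgLib.LE.le_normalizer_inf Subgroup.le_normalizer (by
        rw [Subgroup.normalizer_eq_top C]; exact le_top)
    obtain ⟨w, hw, hwo, hwc⟩ := CfsgLib.LE.exists_central_orderOf_eq (S.2.to_le inf_le_left) hne' S.2 hn
    have hw2 : w ^ 2 = 1 := by rw [← hwo]; exact pow_orderOf_eq_one w
    have hwf := hfix w (CfsgLib.LE.ne_one_of_orderOf_eq hwo)
      (CfsgLib.LE.mem_omegaOne (Subgroup.mem_inf.2 ⟨hw.1, hwc⟩) hw2)
    apply hne
    rw [eq_bot_iff]
    intro x hx
    rw [Subgroup.mem_bot]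
    apply hwf x hx
    rw [Subgroup.mem_centralizer_singleton_iff]
    exact Subgroup.mem_centralizer_iff.1 hw.2 x hx
  have hCodd : (Nat.card ↥C).Coprime 2 := by
    have h1 := CfsgLib.LE.sylow_inf_normal' S C
    rw [hSC] at h1
    rw [CfsgLib.LE.coprime_iff_not_dvd']
    intro h
    exact h1.ne_bot h rfl
  have hCO : C ≤ Cfsg.oddCore G := CfsgLib.LE.le_pPrimeCore inferInstance hCodd
  have hz : z ∈ Cfsg.oddCore G := by
    have h1 : ((z : G) : G ⧸ Cfsg.oddCore G) ∈ Subgroup.center (G ⧸ Cfsg.oddCore G) := by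
      rw [Subgroup.mem_center_iff]
      intro g
      obtain ⟨g, rfl⟩ := QuotientGroup.mk_surjective g
      rw [← QuotientGroup.mk_mul, ← QuotientGroup.mk_mul, QuotientGroup.eq]
      apply hCO
      rw [hC, Subgroup.mem_centralizer_iff]
      intro x hx
      have hx' : x ∈ Cfsg.oddCore G := hx
      -- conj action
      have h2 : ∀ y ∈ Cfsg.oddCore G, z * y * z⁻¹ = y⁻¹ := hzinv
      have h3 : z * (g * x * g⁻¹) * z⁻¹ = g * x⁻¹ * g⁻¹ := by
        rw [h2 _ (hN.conj_mem x hx' g)]; group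
      have h4 : z⁻¹ * x⁻¹ * z = x := by
        rw [← h2 x hx']; group
      have h6 : ((g * z)⁻¹ * (z * g)) * x * ((g * z)⁻¹ * (z * g))⁻¹ = x := by
        calc ((g * z)⁻¹ * (z * g)) * x * ((g * z)⁻¹ * (z * g))⁻¹
            = z⁻¹ * g⁻¹ * (z * (g * x * g⁻¹) * z⁻¹) * g * z := by group
          _ = z⁻¹ * g⁻¹ * (g * x⁻¹ * g⁻¹) * g * z := by rw [h3]
          _ = z⁻¹ * x⁻¹ * z := by group
          _ = x := h4
      calc x * ((g * z)⁻¹ * (z * g)) = (((g * z)⁻¹ * (z * g)) * x * ((g * z)⁻¹ * (z * g))⁻¹) * ((g * z)⁻¹ * (z * g)) := by rw [h6]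
        _ = (g * z)⁻¹ * (z * g) * x := by group
    rw [hZ, Subgroup.mem_bot, QuotientGroup.eq_one_iff] at h1
    exact h1
  have h1 := hcop z hz
  rw [hzo] at h1
  norm_num at h1

end Cfsg.Agent.S2898
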