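import Cfsg.Statements.S2905
import Cfsg.Agent.LibLEPm2

set_option autoImplicit false
open Cfsg

namespace Cfsg.Agent.S2905




/-- Let P be a finite p-minimal group (a Sylow p-subgroup S is not normal and lies in a unique maximal subgroup M of P) and let F be the normal core of M. Then: every subnormal subgroup N of P contained in M satisfies N ∩ S ≤ O_p(P); if O^p(P) has a normal Sylow p-subgroup then the order of P has at most two prime divisors; every normal subgroup N of P either contains O^p(P) or is contained in F; and O^p(P)F ⧸ F is a minimal normal subgroup of P ⧸ F. -/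
theorem result {P : Type*} [Group P] [Finite P] {p : ℕ} [Fact p.Prime] (hP : Cfsg.IsPMinimal p P) (S : Sylow p P) (M : Subgroup P) (hM : IsCoatom M) (hSM : (S : Subgroup P) ≤ M) [hF : M.normalCore.Normal] : (∀ N : Subgroup P, N.IsSubnormal → N ≤ M → N ⊓ (S : Subgroup P) ≤ Cfsg.pCore p P) ∧ ((∀ T : Sylow p ↥(Cfsg.pResidual p P), (T : Subgroup ↥(Cfsg.pResidual p P)).Normal) → (Nat.card P).primeFactors.card ≤ 2) ∧ (∀ N : Subgroup P, N.Normal → Cfsg.pResidual p P ≤ N ∨ N ≤ M.normalCore) ∧ (∀ N : Subgroup P, N.Normal → M.normalCore ≤ N → N ≤ Cfsg.pResidual p P ⊔ M.normalCore → N = M.normalCore ∨ N = Cfsg.pResidual p P ⊔ M.normalCore) ∧ M.normalCore < Cfsg.pResidual p P ⊔ M.normalCore := by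
  have h := CfsgLib.LE.pMin_of hP hM hSM
  have hdich : ∀ N : Subgroup P, N.Normal → Cfsg.pResidual p P ≤ N ∨ N ≤ M.normalCore := by
    intro N hN
    rcases h.normal_dichotomy hN with h1 | h1
    · exact Or.inl h1
    · exact Or.inr (Subgroup.normal_le_normalCore.2 h1)
  refine ⟨fun N hN hNM => h.subnormal_inf_le hN hNM, ?_, hdich, ?_, ?_⟩
  · intro hT
    have hs := CfsgLib.LE.sylow_inf_normal' S (Cfsg.pResidual p P)
    obtain ⟨T, hT'⟩ := hs
    have hTn := hT T
    have h1 : ((S : Subgroup P) ⊓ Cfsg.pResidual p P).Normal := by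
      rw [← Subgroup.normalizer_eq_top_iff, eq_top_iff]
      have h2 : Cfsg.pResidual p P ≤ Subgroup.normalizer (((S : Subgroup P) ⊓ Cfsg.pResidual p P : Subgroup P) : Set P) := by
        rw [← hT']
        exact CfsgLib.LE.le_normalizer_map_subtype _
      have h3 : (S : Subgroup P) ≤ Subgroup.normalizer (((S : Subgroup P) ⊓ Cfsg.pResidual p P : Subgroup P) : Set P) :=
        CfsgLib.LE.le_normalizer_inf Subgroup.le_normalizer (by
          rw [Subgroup.normalizer_eq_top (Cfsg.pResidual p P)]; exact le_top)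
      rw [← CfsgLib.LE.pResidual_sup_sylow S]
      exact sup_le h2 h3
    exact h.two_primes h1 inf_le_left (CfsgLib.LE.sylow_inf_normal' S (Cfsg.pResidual p P))
  · intro N hN hFN hNle
    rcases hdich N hN with h1 | h1
    · right
      exact le_antisymm hNle (sup_le h1 hFN)
    · left
      exact le_antisymm h1 hFN
  · refine lt_of_le_of_ne le_sup_right ?_
    intro h1
    apply h.not_res_le
    have h2 : Cfsg.pResidual p P ≤ M.normalCore := by rw [h1]; exact le_sup_left
    exact h2.trans M.normalCore_le

end Cfsg.Agent.S2905
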