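import Cfsg.Statements.S2907
import Cfsg.Agent.LibExtraH28

set_option autoImplicit false
open Cfsg

namespace Cfsg.Agent.S2907




/-- Let X be a finite semi-extraspecial p-group and x an element of X outside the centre. Then the index of C_X(x) in X equals the order of Z(X), and the commutators [x, y], y ∈ X, form exactly the centre Z(X). -/
theorem result {X : Type*} [Group X] [Finite X] {p : ℕ} [Fact p.Prime] (hX : Cfsg.IsSemiExtraspecial p X) (x : X) (hx : x ∉ Subgroup.center X) : (Subgroup.centralizer ({x} : Set X)).index = Nat.card ↥(Subgroup.center X) ∧ {z : X | ∃ y : X, z = x * y * x⁻¹ * y⁻¹} = (Subgroup.center X : Set X) := by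
  have hXp : IsPGroup p X := hX.1.1
  have hcm : ∀ a b : X, a * b * a⁻¹ * b⁻¹ ∈ Subgroup.center X := fun a b => by
    rw [← hX.1.2.1]; exact CfsgLib.ExtraH28.comm_mem_frattini hXp a b
  set c := CfsgLib.ExtraH28.commHom hcm with hc
  have hca : ∀ a b : X, ((c a b : Subgroup.center X) : X) = a * b * a⁻¹ * b⁻¹ := fun a b => rfl
  have hsurj : (c x).range = ⊤ := by
    by_contra hne
    obtain ⟨M, hM, hle⟩ : ∃ M : Subgroup (Subgroup.center X), IsCoatom M ∧ (c x).range ≤ M := by
      obtain h | ⟨M, hM, hle⟩ := eq_top_or_exists_le_coatom (c x).range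
      · exact absurd h hne
      · exact ⟨M, hM, hle⟩
    set Y : Subgroup X := M.map (Subgroup.center X).subtype with hY
    have hYZ : Y ≤ Subgroup.center X := Subgroup.map_subtype_le _
    have hYM : Y.subgroupOf (Subgroup.center X) = M := by
      rw [hY, Subgroup.subgroupOf, Subgroup.comap_map_eq_self_of_injective (Subgroup.subtype_injective _)]
    obtain ⟨hYn, hYe⟩ := hX.2 Y hYZ (by rw [hYM]; exact hM)
    have hMi : M.index = p := CfsgLib.ExtraH28.coatom_index (hXp.to_subgroup _) hM
    -- `Z / Y` has order `p`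
    have h1 : Nat.card ↥((Subgroup.center X).map (QuotientGroup.mk' Y)) = p := by
      rw [← hMi, ← hYM]
      have h2 : ((QuotientGroup.mk' Y).comp (Subgroup.center X).subtype).ker = Y.subgroupOf (Subgroup.center X) := by
        ext a
        rw [MonoidHom.mem_ker, Subgroup.mem_subgroupOf]
        exact QuotientGroup.eq_one_iff _
      rw [← h2, Subgroup.index_ker, MonoidHom.range_comp, Subgroup.range_subtype]
    have h2 : (Subgroup.center X).map (QuotientGroup.mk' Y) ≤ Subgroup.center (X ⧸ Y) := by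
      rintro _ ⟨z, hz, rfl⟩
      rw [Subgroup.mem_center_iff]
      intro g
      obtain ⟨g, rfl⟩ := QuotientGroup.mk_surjective g
      show (QuotientGroup.mk' Y g) * (QuotientGroup.mk' Y z) = (QuotientGroup.mk' Y z) * (QuotientGroup.mk' Y g)
      rw [← map_mul, ← map_mul, Subgroup.mem_center_iff.1 hz g]
    have h3 : (Subgroup.center X).map (QuotientGroup.mk' Y) = Subgroup.center (X ⧸ Y) := by
      apply Subgroup.eq_of_le_of_card_ge h2
      rw [h1, hYe.2]
    have h4 : QuotientGroup.mk' Y x ∈ Subgroup.center (X ⧸ Y) := by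
      rw [Subgroup.mem_center_iff]
      intro g
      obtain ⟨g, rfl⟩ := QuotientGroup.mk_surjective g
      show (QuotientGroup.mk' Y g) * (QuotientGroup.mk' Y x) = (QuotientGroup.mk' Y x) * (QuotientGroup.mk' Y g)
      rw [← map_mul, ← map_mul]
      symm
      show ((x * g : X) : X ⧸ Y) = ((g * x : X) : X ⧸ Y)
      rw [eq_comm, QuotientGroup.eq]
      have h5 := Subgroup.mem_center_iff.1 (hcm x g) (x⁻¹ * g⁻¹)
      have h6 : (g * x)⁻¹ * (x * g) = ((c x g : Subgroup.center X) : X) := by
        rw [hca]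
        calc (g * x)⁻¹ * (x * g) = x⁻¹ * g⁻¹ * (x * g * x⁻¹ * g⁻¹) * (g * x) := by group
          _ = (x * g * x⁻¹ * g⁻¹) * (x⁻¹ * g⁻¹) * (g * x) := by rw [h5]
          _ = x * g * x⁻¹ * g⁻¹ := by group
      rw [h6]
      exact ⟨c x g, hle ⟨g, rfl⟩, rfl⟩
    rw [← h3] at h4
    obtain ⟨z, hz, hzx⟩ := h4
    apply hx
    have h5 : ((z : X) : X ⧸ Y) = ((x : X) : X ⧸ Y) := hzx
    rw [QuotientGroup.eq] at h5
    have h6 := Subgroup.mul_mem _ hz (hYZ h5)
    rwa [mul_inv_cancel_left] at h6
  constructor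
  · have h1 : (c x).ker = Subgroup.centralizer ({x} : Set X) := by
      ext g
      rw [MonoidHom.mem_ker, Subgroup.mem_centralizer_singleton_iff]
      constructor
      · intro h
        have h3 : ((c x g : Subgroup.center X) : X) = 1 := by rw [h]; rfl
        rw [hca, CfsgLib.ExtraH28.comm_eq_one_iff] at h3
        exact h3.symm
      · intro h
        apply Subtype.ext
        rw [hca]
        exact CfsgLib.ExtraH28.comm_eq_one_iff.mpr h.symm
    rw [← h1, Subgroup.index_ker, hsurj, Subgroup.card_top]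
  · ext z
    constructor
    · rintro ⟨y, rfl⟩
      exact hcm x y
    · intro hz
      obtain ⟨y, hy⟩ : (⟨z, hz⟩ : Subgroup.center X) ∈ (c x).range := by rw [hsurj]; trivial
      exact ⟨y, by rw [← hca, hy]⟩

end Cfsg.Agent.S2907
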