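import Cfsg.Statements.S2909
import Cfsg.Agent.LibLEQ

set_option autoImplicit false
open Cfsg

namespace Cfsg.Agent.S2909




/-- Let p be a prime, E a normal p-subgroup of the finite group G, and U a non-cyclic elementary abelian p-subgroup of G such that either C_E(U) = C_E(u) for every nontrivial u ∈ U, or [E, U] = [E, ⟨u⟩] for every nontrivial u ∈ U. If R is a subgroup of order prime to p normalized by U, then [R, U] centralizes E. -/
theorem result {G : Type*} [Group G] [Finite G] {p : ℕ} [Fact p.Prime] (E : Subgroup G) [E.Normal] (hE : IsPGroup p ↥E) (U : Subgroup G) (hU : Cfsg.IsElementaryAbelian p U) (hnc : ¬ IsCyclic ↥U) (hcond : (∀ u ∈ U, u ≠ 1 → E ⊓ Subgroup.centralizer (U : Set G) = E ⊓ Subgroup.centralizer ({u} : Set G)) ∨ (∀ u ∈ U, u ≠ 1 → ⁅E, U⁆ = ⁅E, Subgroup.zpowers u⁆)) (R : Subgroup G) (hR : ¬ p ∣ Nat.card ↥R) (hRU : U ≤ Subgroup.normalizer (R : Set G)) : ⁅R, U⁆ ≤ Subgroup.centralizer (E : Set G) := by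
  have hUc := CfsgLib.LE.isElementaryAbelian_iff.1 hU
  haveI : IsMulCommutative ↥U := hU.1
  have hUp : IsPGroup p ↥U := CfsgLib.LE.isPGroup_of_elementaryAbelian hU
  have hcopR : (Nat.card ↥U).Coprime (Nat.card ↥R) := by
    obtain ⟨k, hk⟩ := IsPGroup.iff_card.1 hUp
    rw [hk]
    exact Nat.Coprime.pow_left _ (CfsgLib.LE.coprime_iff_not_dvd'.2 hR).symm
  set K : Subgroup G := ⁅R, U⁆ with hK
  have hKR : K ≤ R := Subgroup.le_normalizer_iff_commutator_le_left.1 hRU
  have hUK : U ≤ Subgroup.normalizer (K : Set G) :=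
    CfsgLib.LE.le_normalizer_commutator hRU Subgroup.le_normalizer
  have hcopK : (Nat.card ↥U).Coprime (Nat.card ↥K) :=
    Nat.Coprime.coprime_dvd_right (Subgroup.card_dvd_of_le hKR) hcopR
  have hgR := CfsgLib.Coprime2.generation_noncyclic hnc hRU hcopR
  have hgK := CfsgLib.Coprime2.generation_noncyclic hnc hUK hcopK
  have hpow : ∀ b ∈ R, (orderOf b).Coprime p := by
    intro b hb
    have h1 : orderOf b ∣ Nat.card ↥R := by
      have := orderOf_dvd_natCard (⟨b, hb⟩ : ↥R)
      rwa [← Subgroup.orderOf_coe] at this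
    exact Nat.Coprime.coprime_dvd_left h1 (CfsgLib.LE.coprime_iff_not_dvd'.2 hR)
  have hz : ∀ u : G, Subgroup.centralizer ((Subgroup.zpowers u : Subgroup G) : Set G) = Subgroup.centralizer ({u} : Set G) := by
    intro u
    rw [Subgroup.zpowers_eq_closure, Subgroup.centralizer_closure]
  have hzp : ∀ u ∈ U, IsPGroup p ↥(Subgroup.zpowers u) := fun u hu => hUp.to_le (by rw [Subgroup.zpowers_le]; exact hu)
  rw [← hgK]
  apply iSup₂_le
  rintro u ⟨huU, hu1⟩
  rcases hcond with hc | hc
  · have hRn : R ≤ Subgroup.normalizer ((E ⊓ Subgroup.centralizer (U : Set G) : Subgroup G) : Set G) := by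
      rw [← hgR]
      apply iSup₂_le
      rintro v ⟨hvU, hv1⟩
      rw [hc v hvU hv1]
      apply CfsgLib.LE.le_normalizer_inf
      · rw [Subgroup.normalizer_eq_top E]; exact le_top
      · exact inf_le_right.trans Subgroup.le_normalizer
    have hKW : ⁅K, E ⊓ Subgroup.centralizer (U : Set G)⁆ = ⊥ := by
      apply Subgroup.commutator_commutator_eq_bot_of_rotate
      · rw [eq_bot_iff]
        have h1 : ⁅U, E ⊓ Subgroup.centralizer (U : Set G)⁆ = ⊥ := by
          rw [Subgroup.commutator_comm, Subgroup.commutator_eq_bot_iff_le_centralizer]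
          exact inf_le_right
        rw [h1, Subgroup.commutator_bot_left]
      · rw [eq_bot_iff]
        have h1 : ⁅E ⊓ Subgroup.centralizer (U : Set G), R⁆ ≤ E ⊓ Subgroup.centralizer (U : Set G) :=
          Subgroup.le_normalizer_iff_commutator_le_left.1 hRn
        refine (Subgroup.commutator_mono h1 le_rfl).trans ?_
        rw [(Subgroup.commutator_eq_bot_iff_le_centralizer).2 inf_le_right]
    intro b hb
    obtain ⟨hbK, hbu⟩ := Subgroup.mem_inf.1 hb
    apply CfsgLib.LE.mem_centralizer_of_AxB (hzp u huU) hE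
    · rw [Subgroup.normalizer_eq_top E]; exact le_top
    · rw [Subgroup.normalizer_eq_top E]; trivial
    · exact hpow b (hKR hbK)
    · rw [hz]; exact hbu
    · rw [hz, ← hc u huU hu1]
      exact (Subgroup.commutator_eq_bot_iff_le_centralizer.1 hKW) hbK
  · have hRn : R ≤ Subgroup.normalizer ((⁅E, U⁆ : Subgroup G) : Set G) := by
      rw [← hgR]
      apply iSup₂_le
      rintro v ⟨hvU, hv1⟩
      rw [hc v hvU hv1]
      apply CfsgLib.LE.le_normalizer_commutator
      · rw [Subgroup.normalizer_eq_top E]; exact le_top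
      · refine le_trans ?_ (Subgroup.centralizer_le_normalizer _)
        rw [hz]; exact inf_le_right
    have hEn : ∀ X : Subgroup G, X ≤ Subgroup.normalizer (E : Set G) := fun X => by
      rw [Subgroup.normalizer_eq_top E]; exact le_top
    have hKE : ⁅⁅R, U⁆, E⁆ ≤ ⁅E, U⁆ := by
      apply CfsgLib.LE.three_subgroups_mod hRn
      · exact CfsgLib.LE.le_normalizer_commutator (hEn U) Subgroup.le_normalizer
      · exact Subgroup.normalizer_commutator_ge_left _ _
      · rw [Subgroup.commutator_comm U E]
        exact Subgroup.le_normalizer_iff_commutator_le_left.1 hRn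
      · exact Subgroup.commutator_mono (Subgroup.le_normalizer_iff_commutator_le_left.1 (hEn R)) le_rfl
    have hB : ⁅E, K ⊓ Subgroup.centralizer ({u} : Set G)⁆ = ⊥ := by
      apply CfsgLib.LE.commutator_eq_bot_of_le_commutator hE (hzp u huU)
      · intro h
        exact hR (h.trans (Subgroup.card_dvd_of_le (inf_le_left.trans hKR)))
      · exact hEn _
      · exact hEn _
      · rw [Subgroup.commutator_comm, Subgroup.commutator_eq_bot_iff_le_centralizer, hz]
        exact inf_le_right
      · rw [← hc u huU hu1]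
        refine le_trans ?_ hKE
        rw [Subgroup.commutator_comm]
        exact Subgroup.commutator_mono inf_le_left le_rfl
    rw [Subgroup.commutator_comm] at hB
    exact Subgroup.commutator_eq_bot_iff_le_centralizer.1 hB

end Cfsg.Agent.S2909
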