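import Cfsg.Statements.S2910
import Cfsg.Agent.LibTransNil
import Cfsg.Agent.LibBGCop
import Cfsg.Agent.LibLEP2

set_option autoImplicit false
open Cfsg

namespace Cfsg.Agent.S2910




/-- Let p be an odd prime dividing the order of the finite group G and P a Sylow p-subgroup of G. If Ω₁(P) (generated by the elements of order dividing p) is contained in the centre of G, then G has a normal p-complement. In particular, if G is quasisimple then Ω₁(P) is not central in G. -/
theorem result {G : Type*} [Group G] [Finite G] {p : ℕ} [Fact p.Prime] (hp : p ≠ 2) (hdiv : p ∣ Nat.card G) (P : Sylow p G) (hZ : Cfsg.omegaOne p (P : Subgroup G) ≤ Subgroup.center G) : Cfsg.HasNormalPComplement p G ∧ ¬ Cfsg.IsQuasisimple G := by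
  have hpp : p.Prime := Fact.out
  have hΩ : ∀ x : G, x ^ p = 1 → x ∈ Subgroup.center G := by
    intro x hx
    obtain ⟨Q, hQ⟩ := (CfsgLib.LE.zpowers_isPGroup_of_pow hx).exists_le_sylow
    obtain ⟨g, hg⟩ := MulAction.exists_smul_eq G Q P
    have hPQ : (P : Subgroup G) = (Q : Subgroup G).map (MulAut.conj g).toMonoidHom := by
      rw [← hg]; rfl
    have h1 : g * x * g⁻¹ ∈ (P : Subgroup G) := by
      rw [hPQ]; exact ⟨x, hQ (Subgroup.mem_zpowers x), rfl⟩
    have h2 : (g * x * g⁻¹) ^ p = 1 := by rw [conj_pow, hx]; group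
    have h3 := hZ (CfsgLib.LE.mem_omegaOne h1 h2)
    have h4 : x = g * x * g⁻¹ := by
      have h5 := Subgroup.mem_center_iff.1 h3 g⁻¹
      calc x = g⁻¹ * (g * x * g⁻¹) * g := by group
        _ = (g * x * g⁻¹) * g⁻¹ * g := by rw [h5]
        _ = g * x * g⁻¹ := by group
    rw [h4]; exact h3
  have hN : Cfsg.HasNormalPComplement p G := by
    by_contra hno
    obtain ⟨Q, g, hQ, hg, ho, hgc⟩ := CfsgLib.TransNil.exists_of_not_hasNPC hno
    apply hgc
    have h1 : Subgroup.zpowers g ≤ Subgroup.normalizer (Q : Set G) := by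
      rw [Subgroup.zpowers_le]; exact hg
    have h2 := CfsgLib.BGPi.cop_omega hpp hp hQ h1 (by rw [Nat.card_zpowers]; exact ho) (by
      intro x _ hxp a _
      exact Subgroup.mem_center_iff.1 (hΩ x hxp) a)
    exact h2 (Subgroup.mem_zpowers g)
  refine ⟨hN, ?_⟩
  rintro ⟨hperf, hsimp⟩
  obtain ⟨P', N, hNn, hcompl⟩ := hN
  haveI := hNn
  -- `G / N` is a `p`-group, hence solvable; `G` perfect gives `N = ⊤`
  have h1 : IsPGroup p (G ⧸ N) := by
    have h2 : IsPGroup p ↥(P' : Subgroup G) := P'.2
    have h3 := hcompl.symm.QuotientMulEquiv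
    exact h2.of_equiv h3.symm
  have h2 : N = ⊤ := by
    by_contra hne
    haveI : Nontrivial (G ⧸ N) := QuotientGroup.nontrivial_iff.2 hne
    have h3 : Group.IsSolvable (G ⧸ N) := by
      haveI := h1.isNilpotent
      infer_instance
    have h4 := Group.IsSolvable.commutator_lt_top_of_nontrivial (G ⧸ N)
    have h5 : commutator (G ⧸ N) = ⊤ := by
      have h6 : commutator G = ⊤ := hperf.commutator_eq_top
      have h7 := Subgroup.map_commutator (⊤ : Subgroup G) ⊤ (QuotientGroup.mk' N)
      rw [← commutator_def, h6, Subgroup.map_top_of_surjective _ (QuotientGroup.mk'_surjective N)] at h7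
      rw [commutator_def, ← h7]
    exact h4.ne h5
  have h3 : (P' : Subgroup G) = ⊥ := by
    have h4 := hcompl.disjoint
    rw [h2] at h4
    exact disjoint_top.1 h4.symm
  have h4 := P'.card_eq_multiplicity
  rw [h3, Subgroup.card_bot] at h4
  have h2' : (Nat.card G).factorization p ≠ 0 := by
    intro h3
    rcases (Nat.factorization_eq_zero_iff _ _).1 h3 with h4 | h4 | h4
    · exact h4 hpp
    · exact h4 hdiv
    · exact Nat.card_pos.ne' h4
  have h3 := Nat.one_lt_pow h2' hpp.one_lt
  omega

end Cfsg.Agent.S2910
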