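import Cfsg.Statements.S2922
import Mathlib
import Cfsg.Agent.LibPQ
import Cfsg.Agent.LibLE13

set_option autoImplicit false
set_option linter.all false
open Cfsg

namespace Cfsg.Agent.S2922

open CfsgLib.LE Cfsg Subgroup
open scoped commutatorElement

theorem charp_of_gf {X : Type*} [Group X] [Finite X] {p : ℕ} [Fact p.Prime]
    (h : generalizedFittingSubgroup X = pCore p X) : centralizer (pCore p X : Set X) ≤ pCore p X := by
  have := CfsgLib.Comp.centralizer_gfitting_le (G := X)
  rwa [h] at this

theorem gf_of_charp {X : Type*} [Group X] [Finite X] {p : ℕ} [Fact p.Prime]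
    (h : centralizer (pCore p X : Set X) ≤ pCore p X) : generalizedFittingSubgroup X = pCore p X := by
  apply CfsgLib.PQ.gfitting_eq_pCore_of
  · have h1 : pPrimeCore p X ≤ centralizer (pCore p X : Set X) := by
      rw [← commutator_eq_bot_iff_le_centralizer]
      exact CfsgLib.PQ.pPrimeCore_commute_pCore p
    have h3 := CfsgLib.PQ.card_inf_pCore_pPrimeCore p (CfsgLib.Cores.pCore_isPGroup (G := X) p)
      (CfsgLib.Cores.pPrimeCore_coprime (G := X) p)
    rwa [inf_eq_right.2 (h1.trans h)] at h3
  · have h1 : layer X ≤ centralizer (pCore p X : Set X) := by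
      have h2 := CfsgLib.Comp.layer_commute_fitting (G := X)
      rw [commutator_eq_bot_iff_le_centralizer] at h2
      exact h2.trans (centralizer_le (SetLike.coe_subset_coe.2 (CfsgLib.Cores.pCore_le_fittingSubgroup p)))
    apply CfsgLib.PQ.eq_bot_of_perfect_nilpotent CfsgLib.Comp.commutator_layer
    exact ((CfsgLib.Cores.pCore_isPGroup p).to_le (h1.trans h)).isNilpotent

/-- Let p be a prime, X a finite group, B a p-subgroup of X and C a normal subgroup of B. If N_X(C) has characteristic p (its generalized Fitting subgroup is O_p(N_X(C))), then N_X(B) and C_X(B) have characteristic p. -/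
theorem result {X : Type*} [Group X] [Finite X] {p : ℕ} [Fact p.Prime] (B C : Subgroup X) (hB : IsPGroup p ↥B) (hCB : C ≤ B) (hCn : (C.subgroupOf B).Normal) (hC : Cfsg.generalizedFittingSubgroup ↥(Subgroup.normalizer (C : Set X)) = Cfsg.pCore p ↥(Subgroup.normalizer (C : Set X))) : Cfsg.generalizedFittingSubgroup ↥(Subgroup.normalizer (B : Set X)) = Cfsg.pCore p ↥(Subgroup.normalizer (B : Set X)) ∧ Cfsg.generalizedFittingSubgroup ↥(Subgroup.centralizer (B : Set X)) = Cfsg.pCore p ↥(Subgroup.centralizer (B : Set X)) := by
  have hB' : C ≤ B := hCB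
  have hBN : B ≤ normalizer (C : Set X) := le_normalizer_of_subgroupOf_normal hCB hCn
  have h1 : CharPOf p (normalizer (C : Set X)) := (charPOf_iff_type _).2 (charp_of_gf hC)
  have h2 : CharPOf p (centralizer (B : Set X)) := by
    have h3 := h1.inf_centralizer hBN hB
    have h4 : normalizer (C : Set X) ⊓ centralizer (B : Set X) = centralizer (B : Set X) := by
      rw [inf_eq_right]
      exact (centralizer_le (SetLike.coe_subset_coe.2 hCB)).trans (centralizer_le_normalizer _)
    rwa [h4] at h3
  have h3 : CharPOf p (normalizer (B : Set X)) := by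
    have hn : normalizer (B : Set X) ≤ normalizer (centralizer (B : Set X) : Set X) :=
      le_normalizer_centralizer le_rfl
    apply charPOf_of_sub h2
    · exact pCoreOf_le_pCoreOf_of_normal (centralizer_le_normalizer _) hn
    · intro x hx hco hxc
      exact centralizer_le (SetLike.coe_subset_coe.2
        (le_pCoreOf le_normalizer le_rfl hB)) hxc
  exact ⟨gf_of_charp ((charPOf_iff_type _).1 h3), gf_of_charp ((charPOf_iff_type _).1 h2)⟩

end Cfsg.Agent.S2922
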