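import Cfsg.Statements.S2924
import Mathlib
import Cfsg.Agent.LibLE11OC

set_option autoImplicit false
set_option linter.all false
open Cfsg

namespace Cfsg.Agent.S2924

open CfsgLib.LE11OC CfsgLib.LE Cfsg Subgroup
open scoped commutatorElement

theorem subgroupOf_le_centralizer {X : Type*} [Group X] {D M : Subgroup X} {N : Subgroup M}
    (h : ⁅N.map M.subtype, D⁆ = ⊥) : D.subgroupOf M ≤ centralizer (N : Set M) := by
  intro d hd
  rw [mem_centralizer_iff]
  intro n hn
  rw [mem_subgroupOf] at hd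
  have h1 : (n : X) ∈ N.map M.subtype := ⟨n, hn, rfl⟩
  have h2 := commutator_eq_bot_iff_le_centralizer.1 h h1
  rw [mem_centralizer_iff] at h2
  exact Subtype.ext (h2 d hd).symm

theorem coprime_subgroupOf {X : Type*} [Group X] {D M : Subgroup X} {n : ℕ} (h : D ≤ M)
    (hD : (Nat.card D).Coprime n) : (Nat.card (D.subgroupOf M)).Coprime n := by
  rwa [Nat.card_congr (subgroupOfEquivOfLe h).toEquiv]

theorem char2_case {X : Type*} [Group X] [Finite X] {M B D : Subgroup X}
    (hM : generalizedFittingSubgroup M = pCore 2 M) (hBM : B ≤ M) (hB : IsPGroup 2 B) (hDM : D ≤ M)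
    (hD : (Nat.card D).Coprime 2) (hBD : D ≤ centralizer (B : Set X))
    (hn : M ⊓ centralizer (B : Set X) ≤ normalizer (D : Set X)) : D = ⊥ := by
  have h1 : ⁅(pCore 2 M).map M.subtype, D⁆ = ⊥ :=
    commutator_eq_bot (H := M) ((CfsgLib.Cores.pCore_isPGroup 2).map _) hB hD
      (map_subtype_le _) (le_normalizer_map_subtype _) hDM hBM hBD hn
  have h2 := subgroupOf_le_centralizer h1
  rw [← hM] at h2
  have h3 := h2.trans CfsgLib.Comp.centralizer_gfitting_le
  rw [hM] at h3
  have h4 : IsPGroup 2 (D.subgroupOf M) := (CfsgLib.Cores.pCore_isPGroup 2).to_le h3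
  obtain ⟨n, hn⟩ := IsPGroup.iff_card.1 h4
  have h5 := coprime_subgroupOf hDM hD
  rw [hn] at h5
  have h6 : n = 0 := by
    by_contra h0
    have := Nat.Coprime.coprime_dvd_left (dvd_pow_self 2 h0) h5
    norm_num at this
  rw [h6, pow_zero, Nat.card_congr (subgroupOfEquivOfLe hDM).toEquiv] at hn
  exact Subgroup.card_eq_one.1 hn

theorem balance {X : Type*} [Group X] [Finite X] {H B D : Subgroup X} {z : X}
    (hE : layer H = ⊥) (hzA : ∀ a ∈ ocore 2 H, z * a * z⁻¹ = a⁻¹) (hBH : B ≤ H)
    (hB : IsPGroup 2 B) (hDH : D ≤ H)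
    (hD : (Nat.card D).Coprime 2) (hBD : D ≤ centralizer (B : Set X))
    (hn : H ⊓ centralizer (B : Set X) ≤ normalizer (D : Set X))
    (hzD : ∀ d ∈ D, z * d * z⁻¹ = d⁻¹) : D ≤ ocore 2 H := by
  have h1 : ⁅(pCore 2 H).map H.subtype, D⁆ = ⊥ :=
    commutator_eq_bot (H := H) ((CfsgLib.Cores.pCore_isPGroup 2).map _) hB hD
      (map_subtype_le _) (le_normalizer_map_subtype _) hDH hBH hBD hn
  have h2 := subgroupOf_le_centralizer h1
  have h3 : ⁅ocore 2 H, D⁆ = ⊥ := by
    rw [commutator_comm, commutator_eq_bot_iff_le_centralizer]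
    intro d hd
    -- the square of an element of D centralizes ocore
    have key : ∀ d ∈ D, ∀ a ∈ ocore 2 H, (d * d) * a = a * (d * d) := by
      intro d hd a ha
      have hb : d * a * d⁻¹ ∈ ocore 2 H :=
        (mem_normalizer_iff.1 (le_normalizer_ocore 2 H (hDH hd)) _).1 ha
      have e1 := hzA _ hb
      have e2 : z * (d * a * d⁻¹) * z⁻¹ = (z * d * z⁻¹) * (z * a * z⁻¹) * (z * d * z⁻¹)⁻¹ := by group
      rw [e2, hzD d hd, hzA a ha, inv_inv] at e1
      have e3 : d⁻¹ * a * d = d * a * d⁻¹ := by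
        have := congrArg (·⁻¹) e1
        simp only [mul_inv_rev, inv_inv] at this
        rw [← this]; group
      calc (d * d) * a = d * (d * a * d⁻¹) * d := by group
        _ = d * (d⁻¹ * a * d) * d := by rw [e3]
        _ = a * (d * d) := by group
    rw [mem_centralizer_iff]
    intro a ha
    -- d is a power of d * d
    have hodd : Odd (orderOf d) := by
      have h4 : (orderOf d).Coprime 2 := Nat.Coprime.coprime_dvd_left
        (by rw [← Subgroup.orderOf_mk d hd]; exact orderOf_dvd_natCard _) hD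
      exact (Nat.coprime_two_right).1 h4
    obtain ⟨k, hk⟩ := hodd
    have hpow : d = (d * d) ^ (k + 1) := by
      rw [← sq, ← pow_mul]
      have : 2 * (k + 1) = orderOf d + 1 := by omega
      rw [this, pow_succ, pow_orderOf_eq_one, one_mul]
    have hc : Commute (d * d) a := key d hd a ha
    have := (hc.pow_left (k + 1)).eq
    rw [← hpow] at this
    exact this.symm
  have h4 := subgroupOf_le_centralizer (N := pPrimeCore 2 H) h3
  have h5 := le_core_of_centralizes hE (coprime_subgroupOf hDH hD) h2 h4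
  have h6 := Subgroup.map_mono (f := H.subtype) h5
  rwa [map_subtype_subgroupOf hDH] at h6

theorem index_le_two {X : Type*} [Group X] [Finite X] {Y B : Subgroup X}
    (hc : ∀ a ∈ Y, ∀ b ∈ Y, a * b = b * a) (hsq : ∀ a ∈ Y, a * a = 1) {a : X} (ha : a ∈ Y)
    (hB : Y ≤ B ⊔ zpowers a) (hBY : B ≤ Y) : B.relIndex Y ≤ 2 := by
  have h1 : Nat.card (zpowers a) ≤ 2 := by
    rw [Nat.card_zpowers]
    apply Nat.le_of_dvd (by norm_num)
    rw [orderOf_dvd_iff_pow_eq_one, sq]; exact hsq a ha
  have h2 : Nat.card (B ⊔ zpowers a : Subgroup X) ≤ Nat.card B * Nat.card (zpowers a) := by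
    have hn : B ≤ normalizer (zpowers a : Set X) := by
      refine le_trans ?_ (Subgroup.centralizer_le_normalizer _)
      intro b hb
      rw [mem_centralizer_iff]
      intro x hx
      exact hc x ((zpowers_le.2 ha) hx) b (hBY hb)
    have := card_sup_mul_card_inf hn
    rw [← this]
    exact Nat.le_mul_of_pos_right _ Nat.card_pos
  have h3 : Nat.card Y ≤ Nat.card B * 2 :=
    ((Subgroup.card_le_of_le hB).trans h2).trans (Nat.mul_le_mul_left _ h1)
  rw [← card_mul_relIndex hBY] at h3
  exact Nat.le_of_mul_le_mul_left h3 Nat.card_pos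

theorem main {X : Type*} [Group X] [Finite X] (Y : Subgroup X) (hY : IsElementaryAbelian 2 Y)
    (h8 : 8 ≤ Nat.card ↥Y) (hE : ∀ x ∈ Y, x ≠ 1 → layer ↥(centralizer ({x} : Set X)) = ⊥)
    (hz : ∃ z ∈ Y, z ≠ 1 ∧ generalizedFittingSubgroup ↥(centralizer ({z} : Set X)) =
      pCore 2 ↥(centralizer ({z} : Set X))) {W : Subgroup X}
    (hW : W = ⨆ y : {y : X // y ∈ Y ∧ y ≠ 1}, ocore 2 (centralizer ({(y : X)} : Set X))) :
    Odd (Nat.card ↥W) ∧ normalizer (Y : Set X) ≤ normalizer (W : Set X) := by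
  obtain ⟨z, hzY, hz1, hzM⟩ := hz
  have hc : ∀ a ∈ Y, ∀ b ∈ Y, a * b = b * a := by
    intro a ha b hb
    have := hY.1
    exact congrArg Subtype.val (mul_comm' (⟨a, ha⟩ : Y) ⟨b, hb⟩)
  have hsq : ∀ a ∈ Y, a * a = 1 := fun a ha => by rw [← sq]; exact hY.2 a ha
  have hY2 : IsPGroup 2 Y := fun a => ⟨1, by
    rw [pow_one]; exact Subtype.ext (hY.2 a a.2)⟩
  have hYle : ∀ y ∈ Y, Y ≤ centralizer ({y} : Set X) := by
    intro y hy b hb
    rw [mem_centralizer_singleton_iff]; exact hc b hb y hy
  have hsing : ∀ y : X, centralizer ({y} : Set X) = centralizer (zpowers y : Set X) := by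
    intro y; rw [zpowers_eq_closure, centralizer_closure]
  -- step 2
  have step2 : ∀ B ≤ Y, ((∀ d ∈ ocore 2 (centralizer (B : Set X)), z * d * z⁻¹ = d⁻¹) ∧
      ∀ a ∈ ocore 2 (centralizer (B : Set X)), ∀ b ∈ ocore 2 (centralizer (B : Set X)),
        a * b = b * a) := by
    intro B hB
    have hzB : z ∈ centralizer (B : Set X) := by
      rw [mem_centralizer_iff]; intro b hb; exact hc b (hB hb) z hzY
    refine inverts_of_fpf (le_normalizer_ocore 2 _ hzB) (hsq z hzY) ?_
    refine char2_case (M := centralizer ({z} : Set X)) (B := B) hzM (hB.trans (hYle z hzY))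
      (hY2.to_le hB) inf_le_right ?_ (inf_le_left.trans (ocore_le 2 _)) ?_
    · exact Nat.Coprime.coprime_dvd_left (card_dvd_of_le inf_le_left) (ocore_coprime 2 _)
    · refine le_normalizer_inf (inf_le_right.trans (le_normalizer_ocore 2 _))
        (inf_le_left.trans le_normalizer)
  have step2' : ∀ y ∈ Y, ((∀ d ∈ ocore 2 (centralizer ({y} : Set X)), z * d * z⁻¹ = d⁻¹) ∧
      ∀ a ∈ ocore 2 (centralizer ({y} : Set X)), ∀ b ∈ ocore 2 (centralizer ({y} : Set X)),
        a * b = b * a) := by
    intro y hy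
    have := step2 (zpowers y) (zpowers_le.2 hy)
    rwa [← hsing] at this
  -- step 3
  have step3 : ∀ B ≤ Y, ∀ y ∈ B, y ≠ 1 →
      ocore 2 (centralizer (B : Set X)) ≤ ocore 2 (centralizer ({y} : Set X)) := by
    intro B hB y hyB hy1
    have hle : centralizer (B : Set X) ≤ centralizer ({y} : Set X) :=
      centralizer_le (Set.singleton_subset_iff.2 hyB)
    exact balance (z := z) (B := B) (hE y (hB hyB) hy1) (step2' y (hB hyB)).1
      (hB.trans (hYle y (hB hyB))) (hY2.to_le hB) ((ocore_le 2 _).trans hle) (ocore_coprime 2 _)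
      (ocore_le 2 _) (inf_le_right.trans (le_normalizer_ocore 2 _)) (step2 B hB).1
  -- step 4
  have step4 : ∀ y ∈ Y, y ≠ 1 → ocore 2 (centralizer ({y} : Set X)) ≤
      ⨆ B ∈ {B : Subgroup X | B ≤ Y ∧ y ∈ B ∧ B.relIndex Y ≤ 2},
        ocore 2 (centralizer (B : Set X)) := by
    intro y hy hy1
    have hcomm := hY.1
    have hgen := CfsgLib.Coprime2.generation_cyclic_quotient (A := Y)
      (K := ocore 2 (centralizer ({y} : Set X)))
      ((hYle y hy).trans (le_normalizer_ocore 2 _)) (by
        obtain ⟨n, hn⟩ := IsPGroup.iff_card.1 hY2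
        rw [hn]
        exact Nat.Coprime.pow_left _ (ocore_coprime 2 _).symm)
    conv_lhs => rw [← hgen]
    refine iSup₂_le ?_
    rintro B ⟨hBY, a, ha, hYB⟩
    refine le_trans ?_ (le_iSup₂_of_le (B ⊔ zpowers y) ⟨?_, ?_, ?_⟩ le_rfl)
    · have hCle : centralizer ((B ⊔ zpowers y : Subgroup X) : Set X) ≤
          centralizer (B : Set X) := centralizer_le (SetLike.coe_subset_coe.2 le_sup_left)
      have hCle' : centralizer ((B ⊔ zpowers y : Subgroup X) : Set X) ≤
          centralizer ({y} : Set X) := by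
        rw [hsing]; exact centralizer_le (SetLike.coe_subset_coe.2 le_sup_right)
      apply le_ocore
      · intro d hd
        have h1 : d ∈ centralizer (B : Set X) := hd.2
        have h2 : d ∈ centralizer ({y} : Set X) := ocore_le 2 _ hd.1
        rw [hsing] at h2
        have h3 : (B ⊔ zpowers y : Subgroup X) ≤ centralizer ({d} : Set X) := by
          refine sup_le ?_ ?_
          · intro b hb; rw [mem_centralizer_singleton_iff]
            exact (mem_centralizer_iff.1 h1) b hb
          · intro b hb; rw [mem_centralizer_singleton_iff]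
            exact (mem_centralizer_iff.1 h2) b hb
        rw [mem_centralizer_iff]
        intro b hb
        exact mem_centralizer_singleton_iff.1 (h3 hb)
      · refine le_normalizer_inf (hCle'.trans (le_normalizer_ocore 2 _)) (hCle.trans le_normalizer)
      · exact Nat.Coprime.coprime_dvd_left (card_dvd_of_le inf_le_left) (ocore_coprime 2 _)
    · exact sup_le hBY (zpowers_le.2 hy)
    · exact (le_sup_right : zpowers y ≤ _) (mem_zpowers y)
    · have h1 := index_le_two hc hsq ha (hYB.trans (sup_le_sup_right le_sup_left _))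
        (sup_le hBY (zpowers_le.2 hy))
      exact h1
  -- commuting
  have step5 : ∀ y ∈ Y, y ≠ 1 → ∀ y' ∈ Y, y' ≠ 1 → ocore 2 (centralizer ({y} : Set X)) ≤
      centralizer (ocore 2 (centralizer ({y'} : Set X)) : Set X) := by
    intro y hy hy1 y' hy' hy1'
    refine (step4 y hy hy1).trans (iSup₂_le ?_)
    rintro B ⟨hBY, hyB, hBi⟩
    rw [le_centralizer_iff]
    refine (step4 y' hy' hy1').trans (iSup₂_le ?_)
    rintro B' ⟨hBY', hyB', hBi'⟩
    have h1 : (B ⊓ B').relIndex Y ≤ 4 :=
      (relIndex_inf_le).trans (by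
        calc B.relIndex Y * B'.relIndex Y ≤ 2 * 2 := Nat.mul_le_mul hBi hBi'
          _ = 4 := by norm_num)
    have h2 : B ⊓ B' ≠ ⊥ := by
      intro h
      rw [h, relIndex_bot_left] at h1
      omega
    obtain ⟨⟨e, he⟩, he1'⟩ := Subgroup.ne_bot_iff_exists_ne_one.1 h2
    have he1 : e ≠ 1 := fun h' => he1' (Subtype.ext h')
    intro a ha
    rw [mem_centralizer_iff]
    intro b hb
    exact (step2' e (hBY he.1)).2 b (step3 B hBY e he.1 he1 hb) a (step3 B' hBY' e he.2 he1 ha)
  have hWc : ∀ y ∈ Y, y ≠ 1 → W ≤ centralizer (ocore 2 (centralizer ({y} : Set X)) : Set X) := by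
    intro y hy hy1
    rw [hW]
    exact iSup_le fun y' => step5 y' y'.2.1 y'.2.2 y hy hy1
  refine ⟨?_, ?_⟩
  · have h1 : W ≤ ocore 2 W := by
      conv_lhs => rw [hW]
      refine iSup_le fun y => ?_
      refine le_ocore ?_ ?_ (ocore_coprime 2 _)
      · rw [hW]; exact le_iSup (fun y : {y : X // y ∈ Y ∧ y ≠ 1} =>
          ocore 2 (centralizer ({(y : X)} : Set X))) y
      · exact (hWc y y.2.1 y.2.2).trans (centralizer_le_normalizer _)
    have h2 : W = ocore 2 W := le_antisymm h1 (ocore_le 2 W)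
    have h3 := ocore_coprime 2 W
    rw [← h2] at h3
    exact (Nat.coprime_two_right).1 h3
  · have key : ∀ g ∈ normalizer (Y : Set X), W.map (MulAut.conj g).toMonoidHom ≤ W := by
      intro g hg
      conv_lhs => rw [hW]
      rw [Subgroup.map_iSup]
      refine iSup_le ?_
      rintro ⟨y, hy, hy1⟩
      rw [← ocore_map_conj]
      have h1 : (centralizer ({y} : Set X)).map (MulAut.conj g).toMonoidHom =
          centralizer ({g * y * g⁻¹} : Set X) := by
        ext x
        rw [map_conj_mem, mem_centralizer_singleton_iff, mem_centralizer_singleton_iff]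
        constructor
        · intro h
          calc x * (g * y * g⁻¹) = g * ((g⁻¹ * x * g) * y) * g⁻¹ := by group
            _ = g * (y * (g⁻¹ * x * g)) * g⁻¹ := by rw [h]
            _ = g * y * g⁻¹ * x := by group
        · intro h
          calc g⁻¹ * x * g * y = g⁻¹ * (x * (g * y * g⁻¹)) * g := by group
            _ = g⁻¹ * (g * y * g⁻¹ * x) * g := by rw [h]
            _ = y * (g⁻¹ * x * g) := by group
      show ocore 2 ((centralizer ({y} : Set X)).map (MulAut.conj g).toMonoidHom) ≤ W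
      rw [h1, hW]
      exact le_iSup (fun y : {y : X // y ∈ Y ∧ y ≠ 1} =>
          ocore 2 (centralizer ({(y : X)} : Set X))) ⟨g * y * g⁻¹,
            (mem_normalizer_iff.1 hg _).1 hy, fun h => hy1 (by
              have : y = g⁻¹ * (g * y * g⁻¹) * g := by group
              rw [this, h]; group)⟩
    intro g hg
    rw [mem_normalizer_iff_map_conj]
    refine Subgroup.eq_of_le_of_card_ge (key g hg) ?_
    rw [card_map_conj]

/-- Let X be a finite group and Y an elementary abelian 2-subgroup of X of order at least 8 such that C_X(x) has no components (E(C_X(x)) = 1) for every nontrivial x ∈ Y, and F*(C_X(z)) = O₂(C_X(z)) for some nontrivial z ∈ Y. Then the subgroup generated by the cores O(C_X(y)), y ∈ Y nontrivial, has odd order and is normalized by N_X(Y). -/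
theorem result {X : Type*} [Group X] [Finite X] (Y : Subgroup X) (hY : Cfsg.IsElementaryAbelian 2 Y) (h8 : 8 ≤ Nat.card ↥Y) (hE : ∀ x ∈ Y, x ≠ 1 → Cfsg.layer ↥(Subgroup.centralizer ({x} : Set X)) = ⊥) (hz : ∃ z ∈ Y, z ≠ 1 ∧ Cfsg.generalizedFittingSubgroup ↥(Subgroup.centralizer ({z} : Set X)) = Cfsg.pCore 2 ↥(Subgroup.centralizer ({z} : Set X))) : Odd (Nat.card ↥(⨆ y : {y : X // y ∈ Y ∧ y ≠ 1}, (Cfsg.oddCore ↥(Subgroup.centralizer ({(y : X)} : Set X))).map (Subgroup.centralizer ({(y : X)} : Set X)).subtype)) ∧ Subgroup.normalizer (Y : Set X) ≤ Subgroup.normalizer ((⨆ y : {y : X // y ∈ Y ∧ y ≠ 1}, (Cfsg.oddCore ↥(Subgroup.centralizer ({(y : X)} : Set X))).map (Subgroup.centralizer ({(y : X)} : Set X)).subtype : Subgroup X) : Set X) := by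
  exact main Y hY h8 hE hz rfl

end Cfsg.Agent.S2924
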