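import Cfsg.Statements.S2925
import Mathlib
import Cfsg.Agent.LibLE4
import Cfsg.Agent.LibComp

set_option autoImplicit false
set_option linter.all false
open Cfsg

namespace Cfsg.Agent.S2925

open Cfsg Subgroup

/-- Let K be a component of the finite group X and T a Sylow 2-subgroup of X. If some abelian normal subgroup Y of T does not normalize K, then K ⧸ Z(K) has abelian Sylow 2-subgroups. -/
theorem result {X : Type*} [Group X] [Finite X] (K : Subgroup X) (hK : Cfsg.IsComponent K) (T : Sylow 2 X) (Y : Subgroup X) (hYT : Y ≤ (T : Subgroup X)) (hYn : (Y.subgroupOf (T : Subgroup X)).Normal) (hYab : IsMulCommutative ↥Y) (hnot : ¬ Y ≤ Subgroup.normalizer (K : Set X)) (P : Sylow 2 (↥K ⧸ Subgroup.center ↥K)) : IsMulCommutative ↥(P : Subgroup (↥K ⧸ Subgroup.center ↥K)) := by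
  classical
  have : ∃ y ∈ Y, y ∉ normalizer (K : Set X) := by
    by_contra h
    push Not at h
    exact hnot h
  obtain ⟨y, hyY, hyK⟩ := this
  set L : Subgroup X := K.map (MulAut.conj y).toMonoidHom with hL
  have hLK : L ≠ K := fun h => hyK (CfsgLib.LE.mem_normalizer_iff_map_conj.2 h)
  have hLc : IsComponent L := by
    rw [hL]
    exact CfsgLib.Comp.isComponent_map_equiv (MulAut.conj y) hK
  have hcomm : ⁅K, L⁆ = ⊥ := CfsgLib.Comp.components_commute hK hLc (Ne.symm hLK)
  have hKL : ∀ k ∈ K, ∀ l ∈ L, k * l = l * k := by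
    intro k hk l hl
    have := commutator_eq_bot_iff_le_centralizer.1 hcomm hk
    exact (mem_centralizer_iff.1 this l hl).symm
  have hsub : ∀ s ∈ K, y * s * y⁻¹ ∈ L := fun s hs => ⟨s, hs, rfl⟩
  -- commutators of elements of T ∩ K are central
  have key : ∀ s ∈ (T : Subgroup X) ⊓ K, ∀ r ∈ (T : Subgroup X) ⊓ K, (r * s)⁻¹ * (s * r) ∈ L := by
    intro s hs r hr
    have hYT' : ∀ t ∈ (T : Subgroup X), ∀ u ∈ Y, t * u * t⁻¹ ∈ Y := by
      intro t ht u hu
      have := hYn.conj_mem ⟨u, hYT hu⟩ (by rwa [mem_subgroupOf]) ⟨t, ht⟩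
      rwa [mem_subgroupOf] at this
    have h1 : ∀ s ∈ (T : Subgroup X) ⊓ K, s * (y * s⁻¹ * y⁻¹) ∈ Y := by
      intro s hs
      have := Y.mul_mem (hYT' s hs.1 y hyY) (Y.inv_mem hyY)
      convert this using 1
      group
    have h2 : (s * (y * s⁻¹ * y⁻¹)) * (r * (y * r⁻¹ * y⁻¹)) = (r * (y * r⁻¹ * y⁻¹)) * (s * (y * s⁻¹ * y⁻¹)) := by
      have := mul_comm' (⟨_, h1 s hs⟩ : Y) ⟨_, h1 r hr⟩
      exact congrArg Subtype.val this
    have hs' := hsub _ (K.inv_mem hs.2)
    have hr' := hsub _ (K.inv_mem hr.2)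
    set s' := y * s⁻¹ * y⁻¹
    set r' := y * r⁻¹ * y⁻¹
    have e1 : s' * r = r * s' := (hKL r hr.2 s' hs').symm
    have e2 : r' * s = s * r' := (hKL s hs.2 r' hr').symm
    have h3 : (r * s)⁻¹ * (s * r) = r' * s' * (s' * r')⁻¹ := by
      have h4 : s * r * (s' * r') = r * s * (r' * s') := by
        calc s * r * (s' * r') = s * (r * s') * r' := by group
          _ = s * (s' * r) * r' := by rw [e1]
          _ = (s * s') * (r * r') := by group
          _ = (r * r') * (s * s') := h2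
          _ = r * (r' * s) * s' := by group
          _ = r * (s * r') * s' := by rw [e2]
          _ = r * s * (r' * s') := by group
      rw [inv_mul_eq_iff_eq_mul, ← mul_assoc, eq_mul_inv_iff_mul_eq]
      exact h4
    rw [h3]
    exact L.mul_mem (L.mul_mem hr' hs') (L.inv_mem (L.mul_mem hs' hr'))
  obtain ⟨Q, hQ⟩ := CfsgLib.LE.sylow_inf_isSubnormal T hK.1
  have key2 : ∀ s ∈ Q, ∀ r ∈ Q, (r * s)⁻¹ * (s * r) ∈ center K := by
    intro s hs r hr
    have hs' : (s : X) ∈ (T : Subgroup X) ⊓ K := by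
      refine ⟨?_, s.2⟩
      have : s ∈ (Q : Subgroup K) := hs
      rw [hQ, mem_subgroupOf] at this; exact this
    have hr' : (r : X) ∈ (T : Subgroup X) ⊓ K := by
      refine ⟨?_, r.2⟩
      have : r ∈ (Q : Subgroup K) := hr
      rw [hQ, mem_subgroupOf] at this; exact this
    have h1 := key s hs' r hr'
    rw [mem_center_iff]
    intro g
    apply Subtype.ext
    exact hKL g g.2 _ h1
  obtain ⟨Q', hQ'⟩ := Sylow.mapSurjective_surjective
    (QuotientGroup.mk'_surjective (center K)) 2 P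
  obtain ⟨k, hk⟩ := MulAction.exists_smul_eq K Q Q'
  have key3 : ∀ s ∈ Q', ∀ r ∈ Q', (r * s)⁻¹ * (s * r) ∈ center K := by
    intro s hs r hr
    rw [← hk] at hs hr
    have hs1 : k⁻¹ * s * k ∈ Q := by
      have h1 : s ∈ ((k • Q : Sylow 2 K) : Subgroup K) := hs
      rw [Sylow.coe_subgroup_smul] at h1
      obtain ⟨q, hq, rfl⟩ := h1
      have : k⁻¹ * (MulAut.conj k • q) * k = q := by
        rw [MulAut.smul_def, MulAut.conj_apply]; group
      show k⁻¹ * (MulAut.conj k • q) * k ∈ Q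
      rw [this]; exact hq
    have hr1 : k⁻¹ * r * k ∈ Q := by
      have h1 : r ∈ ((k • Q : Sylow 2 K) : Subgroup K) := hr
      rw [Sylow.coe_subgroup_smul] at h1
      obtain ⟨q, hq, rfl⟩ := h1
      have : k⁻¹ * (MulAut.conj k • q) * k = q := by
        rw [MulAut.smul_def, MulAut.conj_apply]; group
      show k⁻¹ * (MulAut.conj k • q) * k ∈ Q
      rw [this]; exact hq
    have h2 := (inferInstance : (center K).Normal).conj_mem _ (key2 _ hs1 _ hr1) k
    convert h2 using 1
    group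
  refine ⟨⟨?_⟩⟩
  rintro ⟨a, ha⟩ ⟨b, hb⟩
  apply Subtype.ext
  rw [← hQ'] at ha hb
  have ha' : a ∈ ((Q'.mapSurjective (QuotientGroup.mk'_surjective (center K)) :
    Sylow 2 (K ⧸ center K)) : Subgroup (K ⧸ center K)) := ha
  have hb' : b ∈ ((Q'.mapSurjective (QuotientGroup.mk'_surjective (center K)) :
    Sylow 2 (K ⧸ center K)) : Subgroup (K ⧸ center K)) := hb
  rw [Sylow.coe_mapSurjective] at ha' hb'
  obtain ⟨s, hs, rfl⟩ := ha'
  obtain ⟨r, hr, rfl⟩ := hb'
  show QuotientGroup.mk' (center K) s * QuotientGroup.mk' (center K) r =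
    QuotientGroup.mk' (center K) r * QuotientGroup.mk' (center K) s
  rw [← map_mul, ← map_mul]
  symm
  exact QuotientGroup.eq.2 (key3 s hs r hr)

end Cfsg.Agent.S2925
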