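import Cfsg.Agent.LibAutAn27
import Cfsg.Agent.LibComp
import Mathlib
-- Template for statement S2929 (row 2929; see /opt/grader/pristine/manifest.json for weights).
-- Copy to Cfsg/Agent/S2929.lean and replace the sorry. The statement below is byte-identical to the frozen
-- statement Cfsg.CfsgFrozen.S2929 (Cfsg/Statements/S2929.lean; the theorem Cfsg.lsp_symmetric_overgroups_of_sylow_three);
-- the grader kernel-checks Cfsg.Agent.S2929.result against that frozen type. Keep the theorem IN THIS FILE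
-- (a `result` declared elsewhere and merely imported here is not credited); helpers may live anywhere
-- under Cfsg/Agent/.
import Cfsg.Statements.S2929
-- import your own Cfsg.Agent.* helpers here

set_option autoImplicit false
open Cfsg

namespace Cfsg.Agent.S2929

open Equiv Equiv.Perm CfsgLib.AutAn27

section Gen
variable {X : Type*} [Fintype X] [DecidableEq X]

theorem mem_rot {H : Subgroup (Perm X)} {a b c : X} (ab : a ≠ b) (ac : a ≠ c) (bc : b ≠ c)
    (h : T a b c ∈ H) : T b c a ∈ H := by rw [← T_rot ab ac bc]; exact h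

theorem mem_inv {H : Subgroup (Perm X)} {a b c : X} (ab : a ≠ b) (ac : a ≠ c) (bc : b ≠ c)
    (h : T a b c ∈ H) : T b a c ∈ H := by rw [← T_inv ab ac bc]; exact H.inv_mem h

theorem four {H : Subgroup (Perm X)} {a b c z : X} (ab : a ≠ b) (ac : a ≠ c) (az : a ≠ z) (bc : b ≠ c)
    (bz : b ≠ z) (cz : c ≠ z) (h1 : T a b z ∈ H) (h2 : T c b z ∈ H) : T a b c ∈ H := by
  have e1 : T c b z * T a b z * (T c b z)⁻¹ ∈ H := H.mul_mem (H.mul_mem h2 h1) (H.inv_mem h2)
  rw [T_conj, T_else ac ab az, T_b cz bz, T_c] at e1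
  have e2 : T c b z * T a z c * (T c b z)⁻¹ ∈ H := H.mul_mem (H.mul_mem h2 e1) (H.inv_mem h2)
  rw [T_conj, T_else ac ab az, T_c, T_a bc.symm cz] at e2
  -- e2 : T a c b
  have e3 := mem_inv ac ab bc.symm e2
  exact mem_rot ac.symm bc.symm ab e3

theorem five {H : Subgroup (Perm X)} {a b c z w : X} (ab : a ≠ b) (ac : a ≠ c) (az : a ≠ z) (aw : a ≠ w)
    (bc : b ≠ c) (bz : b ≠ z) (bw : b ≠ w) (cz : c ≠ z) (cw : c ≠ w) (zw : z ≠ w)
    (h1 : T a b z ∈ H) (h2 : T a c w ∈ H) : T a b c ∈ H := by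
  have e1 : T a c w * T a b z * (T a c w)⁻¹ ∈ H := H.mul_mem (H.mul_mem h2 h1) (H.inv_mem h2)
  rw [T_conj, T_a ac aw, T_else ab.symm bc bw, T_else az.symm cz.symm zw] at e1
  exact four ab ac az bc bz cz h1 e1

theorem tri {H : Subgroup (Perm X)} {a b c : X} (ab : a ≠ b) (ac : a ≠ c) (bc : b ≠ c)
    (h1 : ∃ z, z ≠ a ∧ z ≠ b ∧ T a b z ∈ H) (h2 : ∃ w, w ≠ a ∧ w ≠ c ∧ T a c w ∈ H) : T a b c ∈ H := by
  obtain ⟨z, za, zb, h1⟩ := h1
  obtain ⟨w, wa, wc, h2⟩ := h2
  by_cases zc : z = c
  · subst zc; exact h1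
  by_cases wb : w = b
  · subst wb
    exact mem_rot ac.symm bc.symm ab (mem_inv ac ab bc.symm h2)
  by_cases zw : z = w
  · subst zw
    have e1 : T a c z * T a b z * (T a c z)⁻¹ ∈ H := H.mul_mem (H.mul_mem h2 h1) (H.inv_mem h2)
    rw [T_conj, T_a ac za.symm, T_else ab.symm bc zb.symm, T_c] at e1
    -- e1 : T c b a
    have e2 := mem_inv bc.symm ac.symm ab.symm e1
    -- T b c a
    have e3 := mem_rot bc ab.symm ac.symm e2
    exact mem_rot ac.symm bc.symm ab e3
  · exact five ab ac (Ne.symm za) (Ne.symm wa) bc (Ne.symm zb) (Ne.symm wb) (Ne.symm zc) (Ne.symm wc) zw h1 h2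

/-- the block relation -/
def R (H : Subgroup (Perm X)) (a b : X) : Prop := a = b ∨ ∃ c, c ≠ a ∧ c ≠ b ∧ T a b c ∈ H

theorem R_symm {H : Subgroup (Perm X)} {a b : X} (h : R H a b) : R H b a := by
  by_cases hab : a = b
  · left; exact hab.symm
  rcases h with h | ⟨c, ca, cb, h⟩
  · left; exact h.symm
  · right; exact ⟨c, cb, ca, mem_inv hab ca.symm cb.symm h⟩

theorem R_ex {H : Subgroup (Perm X)} {a b : X} (hab : a ≠ b) (h : R H a b) :
    ∃ c, c ≠ a ∧ c ≠ b ∧ T a b c ∈ H := by
  rcases h with h | h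
  · exact absurd h hab
  · exact h

theorem R_trans {H : Subgroup (Perm X)} {a b c : X} (h1 : R H a b) (h2 : R H b c) : R H a c := by
  by_cases ac : a = c
  · left; exact ac
  by_cases ab : a = b
  · subst ab; exact h2
  by_cases bc : b = c
  · subst bc; exact h1
  have h3 := tri (Ne.symm ab) bc ac (R_ex (Ne.symm ab) (R_symm h1)) (R_ex bc h2)
  -- T b a c
  right
  refine ⟨b, Ne.symm ab, bc, ?_⟩
  exact mem_rot (Ne.symm ab) bc ac h3

theorem R_tri {H : Subgroup (Perm X)} {o a b c : X} (ab : a ≠ b) (ac : a ≠ c) (bc : b ≠ c)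
    (ha : R H o a) (hb : R H o b) (hc : R H o c) : T a b c ∈ H :=
  tri ab ac bc (R_ex ab (R_trans (R_symm ha) hb)) (R_ex ac (R_trans (R_symm ha) hc))

theorem R_of_T {H : Subgroup (Perm X)} {a b c : X} (ac : a ≠ c) (bc : b ≠ c)
    (h : T a b c ∈ H) : R H a b := Or.inr ⟨c, ac.symm, bc.symm, h⟩

/-- the group generated by the three-cycles of `H` -/
def N (H : Subgroup (Perm X)) : Subgroup (Perm X) := Subgroup.closure {g | IsThreeCycle g ∧ g ∈ H}

theorem N_le (H : Subgroup (Perm X)) : N H ≤ H := by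
  rw [N, Subgroup.closure_le]
  rintro g ⟨-, hg⟩
  exact hg

theorem N_pres {H : Subgroup (Perm X)} {g : Perm X} (hg : g ∈ N H) : ∀ x, R H x (g x) := by
  induction hg using Subgroup.closure_induction with
  | mem g hg =>
    intro x
    obtain ⟨h3, hgH⟩ := hg
    by_cases hx : g x = x
    · left; exact hx.symm
    · obtain ⟨e1, e2, e3, e4, -⟩ := three_rep h3 hx
      rw [e1] at hgH
      exact R_of_T e3 e4 hgH
  | one => intro x; left; rfl
  | mul a b _ _ iha ihb =>
    intro x
    exact R_trans (ihb x) (iha (b x))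
  | inv a _ iha =>
    intro x
    have := R_symm (iha (a⁻¹ x))
    rwa [← Perm.mul_apply, mul_inv_cancel, Perm.one_apply] at this

theorem N_conj {H : Subgroup (Perm X)} {h g : Perm X} (hh : h ∈ H) (hg : g ∈ N H) :
    h * g * h⁻¹ ∈ N H := by
  induction hg using Subgroup.closure_induction with
  | mem g hg =>
    obtain ⟨h3, hgH⟩ := hg
    apply Subgroup.subset_closure
    refine ⟨?_, H.mul_mem (H.mul_mem hh hgH) (H.inv_mem hh)⟩
    rw [IsThreeCycle, cycleType_conj]
    exact h3
  | one => simp [Subgroup.one_mem]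
  | mul a b _ _ iha ihb =>
    have : h * (a * b) * h⁻¹ = (h * a * h⁻¹) * (h * b * h⁻¹) := by group
    rw [this]; exact Subgroup.mul_mem _ iha ihb
  | inv a _ iha =>
    have : h * a⁻¹ * h⁻¹ = (h * a * h⁻¹)⁻¹ := by group
    rw [this]; exact Subgroup.inv_mem _ iha

open Classical in
/-- the alternating group on the block of `o` -/
noncomputable def M (H : Subgroup (Perm X)) (o : X) : Subgroup (Perm X) :=
  (alternatingGroup {x // R H o x}).map (ofSubtype : Perm {x // R H o x} →* Perm X)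

open Classical in
theorem ofSubtype_T {p : X → Prop} (a b c : {x // p x}) :
    (ofSubtype (T a b c) : Perm X) = T (a : X) (b : X) (c : X) := by
  unfold T
  rw [map_mul, ofSubtype_swap_eq, ofSubtype_swap_eq]

open Classical in
theorem M_le_N (H : Subgroup (Perm X)) (o : X) : M H o ≤ N H := by
  rw [M, Subgroup.map_le_iff_le_comap, ← closure_three_cycles_eq_alternating, Subgroup.closure_le]
  intro g hg
  have h3 : IsThreeCycle g := hg
  obtain ⟨x, hx⟩ : ∃ x, g x ≠ x := by
    by_contra h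
    push Not at h
    have : g = 1 := Equiv.ext h
    rw [this] at h3
    simp [IsThreeCycle] at h3
  obtain ⟨e1, e2, e3, e4, -⟩ := three_rep h3 hx
  show ofSubtype g ∈ N H
  rw [e1, ofSubtype_T]
  have n1 : (x : X) ≠ (g x : X) := fun h => e2 (Subtype.ext h)
  have n2 : (x : X) ≠ (g (g x) : X) := fun h => e3 (Subtype.ext h)
  have n3 : (g x : X) ≠ (g (g x) : X) := fun h => e4 (Subtype.ext h)
  apply Subgroup.subset_closure
  exact ⟨T_isThree n1 n2 n3, R_tri n1 n2 n3 x.2 (g x).2 (g (g x)).2⟩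

open Classical in
theorem M_fix {H : Subgroup (Perm X)} {o : X} {m : Perm X} (hm : m ∈ M H o) {x : X} (hx : ¬ R H o x) :
    m x = x := by
  obtain ⟨s, -, rfl⟩ := hm
  exact ofSubtype_apply_of_not_mem s hx

open Classical in
theorem M_conj {H : Subgroup (Perm X)} {o : X} {g m : Perm X} (hg : g ∈ N H) (hm : m ∈ M H o) :
    g * m * g⁻¹ ∈ M H o := by
  obtain ⟨s, hs, rfl⟩ := hm
  have hp : ∀ x, R H o x ↔ R H o (g x) := fun x =>
    ⟨fun h => R_trans h (N_pres hg x), fun h => R_trans h (R_symm (N_pres hg x))⟩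
  have hp' : ∀ x, R H o (g x) ↔ R H o x := fun x => (hp x).symm
  refine ⟨g.subtypePerm hp' * s * (g.subtypePerm hp')⁻¹, ?_, ?_⟩
  · exact (alternatingGroup.normal (α := {x // R H o x})).conj_mem s hs _
  · apply Equiv.ext
    intro x
    show ofSubtype (g.subtypePerm hp' * s * (g.subtypePerm hp')⁻¹) x = g (ofSubtype s (g⁻¹ x))
    by_cases hx : R H o x
    · have hx' : R H o (g⁻¹ x) := by
        rw [hp (g⁻¹ x), ← Perm.mul_apply, mul_inv_cancel, Perm.one_apply]; exact hx
      rw [ofSubtype_apply_of_mem _ hx, ofSubtype_apply_of_mem _ hx']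
      have e : (g.subtypePerm hp')⁻¹ ⟨x, hx⟩ = ⟨g⁻¹ x, hx'⟩ := by
        rw [Perm.inv_eq_iff_eq]
        apply Subtype.ext
        show x = g (g⁻¹ x)
        rw [← Perm.mul_apply, mul_inv_cancel, Perm.one_apply]
      rw [Perm.mul_apply, Perm.mul_apply, e]
      rfl
    · have hx' : ¬ R H o (g⁻¹ x) := by
        rw [hp (g⁻¹ x), ← Perm.mul_apply, mul_inv_cancel, Perm.one_apply]; exact hx
      rw [ofSubtype_apply_of_not_mem _ hx, ofSubtype_apply_of_not_mem _ hx', ← Perm.mul_apply,
        mul_inv_cancel, Perm.one_apply]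

theorem T_mem_M {H : Subgroup (Perm X)} {a b c : X} (ab : a ≠ b) (ac : a ≠ c) (bc : b ≠ c)
    (h : T a b c ∈ H) : T a b c ∈ M H a := by
  classical
  have h1 : R H a b := R_of_T ac bc h
  have h2 : R H a c := R_of_T ab bc.symm (mem_rot ab.symm bc ac (mem_inv ab ac bc h))
  refine ⟨T ⟨a, Or.inl rfl⟩ ⟨b, h1⟩ ⟨c, h2⟩, ?_, ?_⟩
  · apply IsThreeCycle.mem_alternatingGroup
    apply T_isThree
    · intro h; exact ab (congrArg Subtype.val h)
    · intro h; exact ac (congrArg Subtype.val h)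
    · intro h; exact bc (congrArg Subtype.val h)
  · exact ofSubtype_T _ _ _

/-- a point moved by a three-cycle of `H` -/
def Cov (H : Subgroup (Perm X)) (x : X) : Prop := ∃ y z, x ≠ y ∧ x ≠ z ∧ y ≠ z ∧ T x y z ∈ H

theorem comm_cov {e e' c : Perm X} {x y z : X} (xy : x ≠ y) (xz : x ≠ z) (yz : y ≠ z) (hc : c = T x y z)
    (h1 : Commute e c) (h2 : Commute e' c) : e (e' x) = e' (e x) := by
  have key : ∀ f : Perm X, Commute f c → ∃ i : ℕ, f x = (c ^ i) x := by
    intro f hf
    have e1 : c (f x) = f y := by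
      have : (c * f) x = (f * c) x := by rw [hf.eq]
      rw [Perm.mul_apply, Perm.mul_apply] at this
      rw [this, hc, T_a xy xz]
    have e2 : c (f x) ≠ f x := by
      rw [e1]
      intro h
      exact xy (f.injective h).symm
    by_cases f1 : f x = x
    · exact ⟨0, by simp [f1]⟩
    by_cases f2 : f x = y
    · exact ⟨1, by rw [pow_one, f2, hc, T_a xy xz]⟩
    by_cases f3 : f x = z
    · exact ⟨2, by rw [pow_two, Perm.mul_apply, f3, hc, T_a xy xz, T_b xz yz]⟩
    · exfalso
      apply e2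
      rw [hc, T_else f1 f2 f3]
  obtain ⟨i, hi⟩ := key e h1
  obtain ⟨j, hj⟩ := key e' h2
  have c1 : e ((c ^ j) x) = (c ^ j) (e x) := by
    have : (e * c ^ j) x = (c ^ j * e) x := by rw [(h1.pow_right j).eq]
    exact this
  have c2 : e' ((c ^ i) x) = (c ^ i) (e' x) := by
    have : (e' * c ^ i) x = (c ^ i * e') x := by rw [(h2.pow_right i).eq]
    exact this
  rw [hj, c1, hi, c2, hj, ← Perm.mul_apply, ← Perm.mul_apply, ← pow_add, ← pow_add, add_comm]

theorem cov_pres {H : Subgroup (Perm X)} {e : Perm X}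
    (hcomm : ∀ x y z, x ≠ y → x ≠ z → y ≠ z → T x y z ∈ H → Commute e (T x y z)) {x : X}
    (h : Cov H (e x)) : Cov H x := by
  obtain ⟨y, z, h1, h2, h3, h4⟩ := h
  have hc := hcomm _ _ _ h1 h2 h3 h4
  have e1 : e (T (e x) y z x) = y := by
    have : (e * T (e x) y z) x = (T (e x) y z * e) x := by rw [hc.eq]
    rw [Perm.mul_apply, Perm.mul_apply] at this
    rw [this, T_a h1 h2]
  have e2 : T (e x) y z x ≠ x := by
    intro h
    rw [h] at e1
    exact h1 e1
  by_cases f1 : x = e x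
  · rw [f1]; exact ⟨y, z, h1, h2, h3, h4⟩
  by_cases f2 : x = y
  · subst f2
    exact ⟨z, e x, h3, h1.symm, h2.symm, mem_rot h1 h2 h3 h4⟩
  by_cases f3 : x = z
  · subst f3
    exact ⟨e x, y, h2.symm, h3.symm, h1, mem_rot h3 h1.symm h2.symm (mem_rot h1 h2 h3 h4)⟩
  · exact absurd (T_else f1 f2 f3) e2

theorem comm_all {H : Subgroup (Perm X)} {e e' : Perm X}
    (h1 : ∀ x y z, x ≠ y → x ≠ z → y ≠ z → T x y z ∈ H → Commute e (T x y z))
    (h2 : ∀ x y z, x ≠ y → x ≠ z → y ≠ z → T x y z ∈ H → Commute e' (T x y z))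
    (h3 : ∀ x y z, ¬ Cov H x → ¬ Cov H y → ¬ Cov H z → x = y ∨ y = z ∨ x = z) : e * e' = e' * e := by
  apply Equiv.ext
  intro x
  show e (e' x) = e' (e x)
  by_cases hx : Cov H x
  · obtain ⟨y, z, k1, k2, k3, k4⟩ := hx
    exact comm_cov k1 k2 k3 rfl (h1 _ _ _ k1 k2 k3 k4) (h2 _ _ _ k1 k2 k3 k4)
  · have u1 : ∀ y, ¬ Cov H y → ¬ Cov H (e y) := fun y hy h => hy (cov_pres h1 h)
    have u2 : ∀ y, ¬ Cov H y → ¬ Cov H (e' y) := fun y hy h => hy (cov_pres h2 h)
    by_cases a1 : e x = x
    · by_cases a2 : e' x = x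
      · rw [a2, a1, a2]
      · rw [a1]
        rcases h3 x (e' x) (e (e' x)) hx (u2 _ hx) (u1 _ (u2 _ hx)) with h | h | h
        · exact absurd h.symm a2
        · exact h.symm
        · exfalso; apply a2
          have : e (e' x) = e x := by rw [a1]; exact h.symm
          exact e.injective this
    · by_cases a2 : e' x = x
      · rw [a2]
        rcases h3 x (e x) (e' (e x)) hx (u1 _ hx) (u2 _ (u1 _ hx)) with h | h | h
        · exact absurd h.symm a1
        · exact h
        · exfalso; apply a1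
          have : e' (e x) = e' x := by rw [a2]; exact h.symm
          exact e'.injective this
      · have b1 : e x = e' x := by
          rcases h3 x (e x) (e' x) hx (u1 _ hx) (u2 _ hx) with h | h | h
          · exact absurd h.symm a1
          · exact h
          · exact absurd h.symm a2
        have b2 : e (e' x) = x := by
          rcases h3 x (e x) (e (e' x)) hx (u1 _ hx) (u1 _ (u2 _ hx)) with h | h | h
          · exact absurd h.symm a1
          · exact absurd (e.injective h).symm a2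
          · exact h.symm
        have b3 : e' (e x) = x := by
          rcases h3 x (e' x) (e' (e x)) hx (u2 _ hx) (u2 _ (u1 _ hx)) with h | h | h
          · exact absurd h.symm a2
          · exact absurd (e'.injective h).symm a1
          · exact h.symm
        rw [b2, b3]

end Gen

/-- the disjoint three-cycles -/
def S0 (n : ℕ) : Set (Perm (Fin n)) :=
  {g | ∃ (i : ℕ) (h : 3 * i + 2 < n), g = T ⟨3 * i, by omega⟩ ⟨3 * i + 1, by omega⟩ ⟨3 * i + 2, h⟩}

theorem S0_comm {n : ℕ} {a b : Perm (Fin n)} (ha : a ∈ S0 n) (hb : b ∈ S0 n) : Commute a b := by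
  obtain ⟨i, hi, rfl⟩ := ha
  obtain ⟨j, hj, rfl⟩ := hb
  by_cases hij : i = j
  · subst hij; exact Commute.refl _
  · apply Equiv.Perm.Disjoint.commute
    intro x
    by_cases hx : x.1 / 3 = i
    · right
      apply T_else
      · intro h; rw [h] at hx; apply hij; simp at hx; omega
      · intro h; rw [h] at hx; apply hij; simp at hx; omega
      · intro h; rw [h] at hx; apply hij; simp at hx; omega
    · left
      apply T_else
      · intro h; apply hx; rw [h]; simp
      · intro h; apply hx; rw [h]; simp; omega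
      · intro h; apply hx; rw [h]; simp; omega

theorem S0_closure {n : ℕ} {g : Perm (Fin n)} (hg : g ∈ Subgroup.closure (S0 n)) :
    g ^ 3 = 1 ∧ ∀ b ∈ Subgroup.closure (S0 n), Commute g b := by
  have h1 : ∀ a ∈ S0 n, ∀ b ∈ Subgroup.closure (S0 n), Commute a b := by
    intro a ha b hb
    induction hb using Subgroup.closure_induction with
    | mem b hb => exact S0_comm ha hb
    | one => exact Commute.one_right _
    | mul b c _ _ ihb ihc => exact ihb.mul_right ihc
    | inv b _ ihb => exact ihb.inv_right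
  induction hg using Subgroup.closure_induction with
  | mem a ha =>
    refine ⟨?_, h1 a ha⟩
    obtain ⟨i, hi, rfl⟩ := ha
    have h3 := (T_isThree (X := Fin n) (a := ⟨3 * i, by omega⟩) (b := ⟨3 * i + 1, by omega⟩)
      (c := ⟨3 * i + 2, hi⟩) (by simp [Fin.ext_iff]) (by simp [Fin.ext_iff]) (by simp [Fin.ext_iff])).orderOf
    exact orderOf_dvd_iff_pow_eq_one.mp (dvd_of_eq h3)
  | one => exact ⟨by simp, fun b _ => Commute.one_left _⟩
  | mul a b ha hb iha ihb =>
    refine ⟨?_, fun c hc => (iha.2 c hc).mul_left (ihb.2 c hc)⟩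
    rw [(iha.2 b hb).mul_pow, iha.1, ihb.1, one_mul]
  | inv a ha iha =>
    refine ⟨?_, fun c hc => (iha.2 c hc).inv_left⟩
    rw [inv_pow, iha.1, inv_one]

theorem Cov_of_T {n : ℕ} {H : Subgroup (Perm (Fin n))} {a b c : Fin n} (ab : a ≠ b) (ac : a ≠ c) (bc : b ≠ c)
    (h : T a b c ∈ H) : Cov H a ∧ Cov H b ∧ Cov H c :=
  ⟨⟨b, c, ab, ac, bc, h⟩, ⟨c, a, bc, ab.symm, ac.symm, mem_rot ab ac bc h⟩,
    ⟨a, b, ac.symm, bc.symm, ab, mem_rot bc ab.symm ac.symm (mem_rot ab ac bc h)⟩⟩

open scoped Pointwise in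
theorem cover {n : ℕ} (H : Subgroup (Perm (Fin n)))
    (hS : ∃ P : Sylow 3 (Perm (Fin n)), (P : Subgroup (Perm (Fin n))) ≤ H) :
    ∃ g : Perm (Fin n), ∀ x : Fin n, (g⁻¹ x).1 < 3 * (n / 3) → Cov H x := by
  obtain ⟨P, hP⟩ := hS
  have hp : IsPGroup 3 ↥(Subgroup.closure (S0 n)) := by
    rintro ⟨g, hg⟩
    refine ⟨1, ?_⟩
    apply Subtype.ext
    show g ^ (3 ^ 1) = 1
    rw [pow_one]
    exact (S0_closure hg).1
  haveI : Fact (Nat.Prime 3) := ⟨Nat.prime_three⟩
  obtain ⟨P0, hP0⟩ := hp.exists_le_sylow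
  obtain ⟨g, hg⟩ := MulAction.exists_smul_eq (Perm (Fin n)) P0 P
  refine ⟨g, ?_⟩
  intro x hx
  set k := g⁻¹ x with hk
  have hxk : x = g k := by rw [hk, ← Perm.mul_apply, mul_inv_cancel, Perm.one_apply]
  have h3 : 3 * (k.1 / 3) + 2 < n := by omega
  have hmem : T (g ⟨3 * (k.1 / 3), by omega⟩) (g ⟨3 * (k.1 / 3) + 1, by omega⟩) (g ⟨3 * (k.1 / 3) + 2, h3⟩) ∈ H := by
    apply hP
    rw [← T_conj, ← hg]
    show _ ∈ MulAut.conj g • (P0 : Subgroup (Perm (Fin n)))
    rw [Subgroup.mem_pointwise_smul_iff_inv_smul_mem, ← map_inv, MulAut.smul_def, MulAut.conj_apply]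
    have e : g⁻¹ * (g * T (⟨3 * (k.1 / 3), by omega⟩ : Fin n) ⟨3 * (k.1 / 3) + 1, by omega⟩ ⟨3 * (k.1 / 3) + 2, h3⟩ * g⁻¹) * g⁻¹⁻¹ =
      T (⟨3 * (k.1 / 3), by omega⟩ : Fin n) ⟨3 * (k.1 / 3) + 1, by omega⟩ ⟨3 * (k.1 / 3) + 2, h3⟩ := by group
    rw [e]
    exact hP0 (Subgroup.subset_closure ⟨k.1 / 3, h3, rfl⟩)
  have n1 : g ⟨3 * (k.1 / 3), by omega⟩ ≠ g ⟨3 * (k.1 / 3) + 1, by omega⟩ := by
    intro h; have := g.injective h; simp [Fin.ext_iff] at this
  have n2 : g ⟨3 * (k.1 / 3), by omega⟩ ≠ g ⟨3 * (k.1 / 3) + 2, h3⟩ := by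
    intro h; have := g.injective h; simp [Fin.ext_iff] at this
  have n3 : g ⟨3 * (k.1 / 3) + 1, by omega⟩ ≠ g ⟨3 * (k.1 / 3) + 2, h3⟩ := by
    intro h; have := g.injective h; simp [Fin.ext_iff] at this
  obtain ⟨q1, q2, q3⟩ := Cov_of_T n1 n2 n3 hmem
  have hr : k = ⟨3 * (k.1 / 3), by omega⟩ ∨ k = ⟨3 * (k.1 / 3) + 1, by omega⟩ ∨ k = ⟨3 * (k.1 / 3) + 2, h3⟩ := by
    have : k.1 % 3 = 0 ∨ k.1 % 3 = 1 ∨ k.1 % 3 = 2 := by omega
    rcases this with h | h | h
    · left; apply Fin.ext; simp; omega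
    · right; left; apply Fin.ext; simp; omega
    · right; right; apply Fin.ext; simp; omega
  rw [hxk]
  rcases hr with hr | hr | hr
  · rw [hr]; exact q1
  · rw [hr]; exact q2
  · rw [hr]; exact q3

theorem cover2 {n : ℕ} (H : Subgroup (Perm (Fin n)))
    (hS : ∃ P : Sylow 3 (Perm (Fin n)), (P : Subgroup (Perm (Fin n))) ≤ H) :
    ∀ x y z, ¬ Cov H x → ¬ Cov H y → ¬ Cov H z → x = y ∨ y = z ∨ x = z := by
  obtain ⟨g, hg⟩ := cover H hS
  intro x y z hx hy hz
  have h1 : ¬ (g⁻¹ x).1 < 3 * (n / 3) := fun h => hx (hg x h)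
  have h2 : ¬ (g⁻¹ y).1 < 3 * (n / 3) := fun h => hy (hg y h)
  have h3 : ¬ (g⁻¹ z).1 < 3 * (n / 3) := fun h => hz (hg z h)
  have e1 := (g⁻¹ x).2
  have e2 := (g⁻¹ y).2
  have e3 := (g⁻¹ z).2
  have : (g⁻¹ x).1 = (g⁻¹ y).1 ∨ (g⁻¹ y).1 = (g⁻¹ z).1 ∨ (g⁻¹ x).1 = (g⁻¹ z).1 := by omega
  rcases this with h | h | h
  · left; exact g⁻¹.injective (Fin.ext h)
  · right; left; exact g⁻¹.injective (Fin.ext h)
  · right; right; exact g⁻¹.injective (Fin.ext h)

open scoped commutatorElement in
set_option maxRecDepth 100000 in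
theorem perm4_solvable : Group.IsSolvable (Equiv.Perm (Fin 4)) := by
  let V : Subgroup (Equiv.Perm (Fin 4)) :=
    { carrier := {σ | σ * σ = 1 ∧ Equiv.Perm.sign σ = 1}
      mul_mem' := by
        intro a b
        revert a b
        decide +kernel
      one_mem' := by decide
      inv_mem' := by
        intro a
        revert a
        decide +kernel }
  have h1 : derivedSeries (Equiv.Perm (Fin 4)) 1 ≤ Equiv.Perm.sign.ker := by
    rw [derivedSeries_one]
    exact Abelianization.commutator_subset_ker _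
  have h2 : derivedSeries (Equiv.Perm (Fin 4)) 2 ≤ V := by
    rw [derivedSeries_succ]
    refine (Subgroup.commutator_mono h1 h1).trans ?_
    rw [Subgroup.commutator_le]
    intro g hg h hh
    rw [MonoidHom.mem_ker] at hg hh
    change ⁅g, h⁆ * ⁅g, h⁆ = 1 ∧ Equiv.Perm.sign ⁅g, h⁆ = 1
    revert g h
    simp only [commutatorElement_def]
    decide +kernel
  have h3 : derivedSeries (Equiv.Perm (Fin 4)) 3 ≤ ⊥ := by
    rw [derivedSeries_succ]
    refine (Subgroup.commutator_mono h2 h2).trans ?_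
    rw [Subgroup.commutator_le]
    intro g hg h hh
    have hg' : g * g = 1 ∧ Equiv.Perm.sign g = 1 := hg
    have hh' : h * h = 1 ∧ Equiv.Perm.sign h = 1 := hh
    rw [Subgroup.mem_bot, commutatorElement_def]
    clear hg hh
    revert g h
    decide +kernel
  exact ⟨⟨3, le_bot_iff.mp h3⟩⟩

theorem perm_solvable (α : Type*) [Finite α] (h : Nat.card α ≤ 4) :
    Group.IsSolvable (Equiv.Perm α) := by
  classical
  haveI : Fintype α := Fintype.ofFinite α
  rw [Nat.card_eq_fintype_card] at h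
  obtain ⟨f⟩ : Nonempty (α ↪ Fin 4) := Function.Embedding.nonempty_of_card_le (by simpa using h)
  haveI := perm4_solvable
  exact Group.isSolvable_of_isSolvable_injective (f := Equiv.Perm.viaEmbeddingHom f)
    (Equiv.Perm.viaEmbeddingHom_injective f)

theorem subn {n : ℕ} (H : Subgroup (Perm (Fin n))) (o : Fin n) : ((M H o).subgroupOf H).IsSubnormal := by
  have hN : ((N H).subgroupOf H).Normal := by
    refine ⟨fun g hg h => ?_⟩
    rw [Subgroup.mem_subgroupOf] at hg ⊢
    exact N_conj h.2 hg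
  refine Subgroup.IsSubnormal.step _ ((N H).subgroupOf H) ?_ hN.isSubnormal ?_
  · exact Subgroup.comap_mono (M_le_N H o)
  · refine ⟨fun g hg h => ?_⟩
    rw [Subgroup.mem_subgroupOf, Subgroup.mem_subgroupOf] at hg ⊢
    exact M_conj (Subgroup.mem_subgroupOf.mp h.2) hg


/-- Let n ≥ 5 and let H be a subgroup of the symmetric group of degree n whose generalized Fitting subgroup F*(H) is quasisimple. If H contains a Sylow 3-subgroup of the symmetric group, then F*(H) is isomorphic to an alternating group of degree m for some m ∈ {n − 2, n − 1, n}. -/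
theorem result (n : ℕ) (hn : 5 ≤ n) (H : Subgroup (Equiv.Perm (Fin n))) (hF : Cfsg.IsQuasisimple ↥(Cfsg.generalizedFittingSubgroup ↥H)) (hS : ∃ P : Sylow 3 (Equiv.Perm (Fin n)), (P : Subgroup (Equiv.Perm (Fin n))) ≤ H) : ∃ m : ℕ, (m = n - 2 ∨ m = n - 1 ∨ m = n) ∧ Nonempty (↥(Cfsg.generalizedFittingSubgroup ↥H) ≃* ↥(alternatingGroup (Fin m))) := by
  classical
  set E : Subgroup ↥H := Cfsg.generalizedFittingSubgroup ↥H with hE
  have hEn : E.Normal := CfsgLib.Comp.gfitting_normal
  have hEc : Cfsg.IsComponent E := ⟨hEn.isSubnormal, hF⟩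
  have hcov := cover2 H hS
  have hex : ∃ o, E ≤ (M H o).subgroupOf H := by
    by_contra hno
    push Not at hno
    have hcm : ∀ o, ⁅E, (M H o).subgroupOf H⁆ = ⊥ := by
      intro o
      rcases CfsgLib.Comp.component_le_or_commute hEc (subn H o) with h | h
      · exact absurd h (hno o)
      · exact h
    have hce : ∀ e ∈ E, ∀ x y z, x ≠ y → x ≠ z → y ≠ z → T x y z ∈ H → Commute (e : Equiv.Perm (Fin n)) (T x y z) := by
      intro e he x y z xy xz yz hT
      have h1 := hcm x
      rw [Subgroup.commutator_eq_bot_iff_le_centralizer] at h1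
      have h2 := h1 he
      rw [Subgroup.mem_centralizer_iff] at h2
      have h3 := h2 ⟨T x y z, hT⟩ (T_mem_M xy xz yz hT)
      exact (congrArg Subtype.val h3).symm
    apply CfsgLib.Comp.quasisimple_center_ne_top hF
    rw [eq_top_iff]
    intro a _
    rw [Subgroup.mem_center_iff]
    intro b
    apply Subtype.ext
    apply Subtype.ext
    exact comm_all (hce b.1 b.2) (hce a.1 a.2) hcov
  obtain ⟨o, ho⟩ := hex
  let ψ : ↥(alternatingGroup {x // R H o x}) →* ↥H :=
    ((ofSubtype : Perm {x // R H o x} →* Perm (Fin n)).comp (alternatingGroup {x // R H o x}).subtype).codRestrict H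
      (fun s => N_le H (M_le_N H o ⟨s.1, s.2, rfl⟩))
  have hψv : ∀ s, ((ψ s : ↥H) : Perm (Fin n)) = ofSubtype s.1 := fun s => rfl
  have hψinj : Function.Injective ψ := by
    intro s t h
    apply Subtype.ext
    apply ofSubtype_injective
    rw [← hψv, ← hψv, h]
  have hψr : ψ.range = (M H o).subgroupOf H := by
    ext g
    rw [MonoidHom.mem_range, Subgroup.mem_subgroupOf]
    constructor
    · rintro ⟨s, rfl⟩
      exact ⟨s.1, s.2, rfl⟩
    · rintro ⟨s, hs, hsg⟩
      exact ⟨⟨s, hs⟩, Subtype.ext hsg⟩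
  have hEr : E ≤ ψ.range := by rw [hψr]; exact ho
  have hmapE : (E.comap ψ).map ψ = E := by
    rw [Subgroup.map_comap_eq, inf_eq_right.mpr hEr]
  haveI hnE : (E.comap ψ).Normal := hEn.comap ψ
  have hEeq : E = ψ.range := by
    by_cases h5 : 5 ≤ Nat.card {x // R H o x}
    · haveI := alternatingGroup.isSimpleGroup h5
      rcases hnE.eq_bot_or_eq_top with h | h
      · exfalso
        rw [h, Subgroup.map_bot] at hmapE
        exact CfsgLib.Comp.component_ne_bot hEc hmapE.symm
      · rw [← hmapE, h, ← MonoidHom.range_eq_map]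
    · exfalso
      haveI := perm_solvable {x // R H o x} (by omega)
      haveI h1 : Group.IsSolvable ↥(alternatingGroup {x // R H o x}) := inferInstance
      haveI h2 : Group.IsSolvable ↥ψ.range :=
        Group.isSolvable_of_surjective (f := ψ.rangeRestrict) ψ.rangeRestrict_surjective
      exact CfsgLib.Comp.quasisimple_not_solvable hF
        (Group.isSolvable_of_isSolvable_injective (Subgroup.inclusion_injective hEr))
  have hcovR : ∀ x, Cov H x → R H o x := by
    intro x hx
    by_contra hR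
    obtain ⟨y, z, xy, xz, yz, hT⟩ := hx
    have hyR : ¬ R H o y := fun h => hR (R_trans h (R_symm (R_of_T xz yz hT)))
    have hzR : ¬ R H o z := fun h => hR (R_trans h (R_of_T yz.symm xy (mem_rot yz xy.symm xz.symm (mem_rot xy xz yz hT))))
    have hc : (⟨T x y z, hT⟩ : ↥H) ∈ Subgroup.centralizer (E : Set ↥H) := by
      rw [Subgroup.mem_centralizer_iff]
      intro e he
      have he' : (e : Perm (Fin n)) ∈ M H o := ho he
      apply Subtype.ext
      show (e : Perm (Fin n)) * T x y z = T x y z * e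
      have hd : Equiv.Perm.Disjoint (e : Perm (Fin n)) (T x y z) := by
        intro w
        by_cases hw : R H o w
        · right
          apply T_else
          · rintro rfl; exact hR hw
          · rintro rfl; exact hyR hw
          · rintro rfl; exact hzR hw
        · left; exact M_fix he' hw
      exact hd.commute.eq
    have h1 := CfsgLib.Comp.centralizer_gfitting_le hc
    have h2 : T x y z ∈ M H o := ho h1
    have h3 := M_fix h2 hR
    rw [T_a xy xz] at h3
    exact xy h3.symm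
  have hcard1 : (Finset.univ.filter (fun x => ¬ R H o x)).card ≤ 2 := by
    by_contra h
    push Not at h
    rw [Finset.two_lt_card] at h
    obtain ⟨a, ha, b, hb, c, hc, h1, h2, h3⟩ := h
    simp only [Finset.mem_filter, Finset.mem_univ, true_and] at ha hb hc
    rcases hcov a b c (fun h => ha (hcovR _ h)) (fun h => hb (hcovR _ h)) (fun h => hc (hcovR _ h)) with h | h | h
    · exact h1 h
    · exact h3 h
    · exact h2 h
  have hcard2 : Fintype.card {x // R H o x} + (Finset.univ.filter (fun x => ¬ R H o x)).card = n := by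
    rw [Fintype.card_subtype]
    have := Finset.card_filter_add_card_filter_not (s := (Finset.univ : Finset (Fin n))) (fun x => R H o x)
    rw [Finset.card_univ, Fintype.card_fin] at this
    exact this
  refine ⟨Fintype.card {x // R H o x}, by omega, ?_⟩
  exact ⟨(MulEquiv.subgroupCongr hEeq).trans ((MonoidHom.ofInjective hψinj).symm.trans
    (Equiv.altCongrHom (Fintype.equivFin _)))⟩

end Cfsg.Agent.S2929
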