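import Cfsg.Statements.S2940
import Mathlib
import Cfsg.Agent.LibLE11Syl

set_option autoImplicit false
set_option linter.all false
open Cfsg

namespace Cfsg.Agent.S2940

open CfsgLib.LE11Syl
open scoped Pointwise

/-- Let S be a Sylow p-subgroup of the finite group G and G₁, G₂ subgroups containing S with G = G₁G₂. Then for every g ∈ G there is a Sylow p-subgroup U of G with S ∩ S^g ≤ U ≤ G₁ ∩ G₂^g (conjugates taken as X^g = g⁻¹Xg). -/
theorem result {G : Type*} [Group G] [Finite G] {p : ℕ} [Fact p.Prime] (S : Sylow p G) (G₁ G₂ : Subgroup G) (h1 : (S : Subgroup G) ≤ G₁) (h2 : (S : Subgroup G) ≤ G₂) (hfact : ∀ g : G, ∃ g₁ ∈ G₁, ∃ g₂ ∈ G₂, g = g₁ * g₂) (g : G) : ∃ U : Sylow p G, (S : Subgroup G) ⊓ Cfsg.subgroupConjRight g (S : Subgroup G) ≤ (U : Subgroup G) ∧ (U : Subgroup G) ≤ G₁ ⊓ Cfsg.subgroupConjRight g G₂ := by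
  obtain ⟨a, ha, b, hb, hab⟩ := hfact g⁻¹
  -- g⁻¹ = a b, with a ∈ G₁, b ∈ G₂
  have key : ∀ X : Subgroup G, Cfsg.subgroupConjRight g X = MulAut.conj g⁻¹ • X := fun X => rfl
  have hG2 : Cfsg.subgroupConjRight g G₂ = MulAut.conj a • G₂ := by
    rw [key, hab, map_mul, mul_smul]
    congr 1
    exact conj_smul_eq_iff.mpr (Subgroup.le_normalizer hb)
  have hSa1 : MulAut.conj a • (S : Subgroup G) ≤ G₁ := by
    intro x hx
    rw [mem_conj_smul] at hx
    have := G₁.mul_mem (G₁.mul_mem ha (h1 hx)) (G₁.inv_mem ha)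
    have e : a * (a⁻¹ * x * a) * a⁻¹ = x := by group
    rwa [e] at this
  have hSa2 : MulAut.conj a • (S : Subgroup G) ≤ Cfsg.subgroupConjRight g G₂ := by
    rw [hG2]; exact Subgroup.pointwise_smul_le_pointwise_smul_iff.mpr h2
  have hle : (S : Subgroup G) ⊓ Cfsg.subgroupConjRight g (S : Subgroup G) ≤ G₁ ⊓ Cfsg.subgroupConjRight g G₂ := by
    apply inf_le_inf h1
    rw [key, key]; exact Subgroup.pointwise_smul_le_pointwise_smul_iff.mpr h2
  obtain ⟨R, hR, hleR⟩ := exists_isSyl_ge (p := p) hle (S.isPGroup'.to_le inf_le_left)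
  have hSyl : IsSyl p (MulAut.conj a • (S : Subgroup G)) ⊤ := by
    apply isSyl_of_card le_top
    rw [card_conj]; exact (isSyl_top S).card_pow
  have hR2 : IsSyl p R ⊤ := by
    apply isSyl_of_card le_top
    rw [hR.card_eq (hSyl.mono (le_inf hSa1 hSa2) le_top), card_conj]
    exact (isSyl_top S).card_pow
  obtain ⟨U, hU⟩ := hR2.sylow_of_top
  exact ⟨U, by rw [hU]; exact hleR, by rw [hU]; exact hR.1⟩

end Cfsg.Agent.S2940
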