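import Cfsg.Statements.S2958
import Mathlib

set_option autoImplicit false
set_option linter.all false
open Cfsg

namespace Cfsg.Agent.S2958

/-- Let X, A, B be subgroups of a group G such that G is generated by the conjugates of X and every conjugate of X is contained in A or in B. Then A = G or B = G. -/
theorem result {G : Type*} [Group G] (X A B : Subgroup G) (hgen : (⨆ g : G, X.map (MulAut.conj g).toMonoidHom) = ⊤) (hcover : ∀ g : G, X.map (MulAut.conj g).toMonoidHom ≤ A ∨ X.map (MulAut.conj g).toMonoidHom ≤ B) : A = ⊤ ∨ B = ⊤ := by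
  classical
  by_cases h : ∀ g : G, X.map (MulAut.conj g).toMonoidHom ≤ A
  · left
    rw [eq_top_iff, ← hgen]; exact iSup_le h
  · right
    push Not at h
    obtain ⟨g0, hg0⟩ := h
    set C : Subgroup G := ⨆ g : {g : G // ¬ X.map (MulAut.conj g).toMonoidHom ≤ A}, X.map (MulAut.conj (g:G)).toMonoidHom with hC
    have hCB : C ≤ B := iSup_le fun g => (hcover g).resolve_left g.2
    have hle : ∀ a ∈ A, C.map (MulAut.conj a).toMonoidHom ≤ C := by
      intro a ha
      rw [hC, Subgroup.map_iSup]
      apply iSup_le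
      intro g
      rw [Subgroup.map_map]
      have e : ((MulAut.conj a).toMonoidHom.comp (MulAut.conj (g:G)).toMonoidHom) = (MulAut.conj (a * g)).toMonoidHom := by
        ext x; simp [mul_assoc]
      rw [e]
      refine le_iSup (fun g : {g : G // ¬ X.map (MulAut.conj g).toMonoidHom ≤ A} => X.map (MulAut.conj (g:G)).toMonoidHom) ⟨a * g, ?_⟩
      intro hcon
      apply g.2
      rintro y ⟨x, hx, rfl⟩
      have h1 : (a * g) * x * (a * g)⁻¹ ∈ A := hcon ⟨x, hx, rfl⟩
      have h2 := A.mul_mem (A.mul_mem (A.inv_mem ha) h1) ha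
      have e2 : a⁻¹ * ((a * g) * x * (a * g)⁻¹) * a = g * x * (g : G)⁻¹ := by group
      rw [e2] at h2
      exact h2
    have hAN : A ≤ Subgroup.normalizer (C : Set G) := by
      intro a ha
      rw [Subgroup.mem_normalizer_iff]
      intro x
      constructor
      · intro hx; exact hle a ha ⟨x, hx, rfl⟩
      · intro hx
        have := hle a⁻¹ (A.inv_mem ha) ⟨_, hx, rfl⟩
        simpa [mul_assoc] using this
    have hCN : C ≤ Subgroup.normalizer (C : Set G) := Subgroup.le_normalizer
    have htop : (⊤ : Subgroup G) ≤ A ⊔ C := by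
      rw [← hgen]
      apply iSup_le
      intro g
      by_cases hg : X.map (MulAut.conj g).toMonoidHom ≤ A
      · exact hg.trans le_sup_left
      · exact (le_iSup (fun g : {g : G // ¬ X.map (MulAut.conj g).toMonoidHom ≤ A} => X.map (MulAut.conj (g:G)).toMonoidHom) ⟨g, hg⟩).trans le_sup_right
    have hNt : Subgroup.normalizer (C : Set G) = ⊤ := top_le_iff.mp (htop.trans (sup_le hAN hCN))
    have hn : C.Normal := Subgroup.normalizer_eq_top_iff.mp hNt
    have hg0C : X.map (MulAut.conj g0).toMonoidHom ≤ C := le_iSup (fun g : {g : G // ¬ X.map (MulAut.conj g).toMonoidHom ≤ A} => X.map (MulAut.conj (g:G)).toMonoidHom) ⟨g0, hg0⟩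
    rw [eq_top_iff, ← hgen]
    apply iSup_le
    intro g
    refine le_trans ?_ hCB
    rintro y ⟨x, hx, rfl⟩
    have h1 : g0 * x * g0⁻¹ ∈ C := hg0C ⟨x, hx, rfl⟩
    have h2 := hn.conj_mem _ h1 (g * g0⁻¹)
    have e2 : g * g0⁻¹ * (g0 * x * g0⁻¹) * (g * g0⁻¹)⁻¹ = g * x * g⁻¹ := by group
    rw [e2] at h2
    exact h2

end Cfsg.Agent.S2958
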