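import Cfsg.Statements.S2960
import Mathlib
import Cfsg.Agent.LibLE11Basic

set_option autoImplicit false
set_option linter.all false
open Cfsg

namespace Cfsg.Agent.S2960

open CfsgLib.LE11Basic in
theorem aux {G : Type*} [Group G] [Finite G] {p : ℕ} [Fact p.Prime] (hG : Subgroup.centralizer (Cfsg.pCore p G : Set G) ≤ Cfsg.pCore p G) (T : Sylow p G) (Q : Subgroup G) (hQT : Q ≤ (T : Subgroup G)) (hQn : (T : Subgroup G) ≤ Subgroup.normalizer (Q : Set G)) (hC : (T : Subgroup G) ⊓ Subgroup.centralizer (Q : Set G) ≤ Q) : Subgroup.centralizer (Q : Set G) ≤ Q := by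
  have hnP := pCore_normal p G
  set P := Cfsg.pCore p G with hP
  have hPT : P ≤ (T : Subgroup G) := pCore_le_sylow T
  have hQp : IsPGroup p Q := T.2.to_le hQT
  -- T normalizes C_G(Q)
  have hTC : (T : Subgroup G) ≤ Subgroup.normalizer ((Subgroup.centralizer (Q : Set G) : Subgroup G) : Set G) := by
    have key : ∀ t ∈ (T : Subgroup G), ∀ y ∈ Subgroup.centralizer (Q : Set G), t * y * t⁻¹ ∈ Subgroup.centralizer (Q : Set G) := by
      intro m hm y hy2
      rw [Subgroup.mem_centralizer_iff] at hy2 ⊢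
      intro w hw
      have h3 : m⁻¹ * w * m ∈ Q := by
        have := (Subgroup.mem_normalizer_iff.mp (hQn ((T : Subgroup G).inv_mem hm)) w).mp hw
        simpa using this
      have h4 := hy2 _ h3
      calc w * (m * y * m⁻¹) = m * ((m⁻¹ * w * m) * y) * m⁻¹ := by group
        _ = m * (y * (m⁻¹ * w * m)) * m⁻¹ := by rw [h4]
        _ = m * y * m⁻¹ * w := by group
    intro t ht
    rw [Subgroup.mem_normalizer_iff]
    intro x
    constructor
    · exact key t ht x
    · intro hx
      have := key t⁻¹ ((T : Subgroup G).inv_mem ht) _ hx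
      have e' : t⁻¹ * (t * x * t⁻¹) * t⁻¹⁻¹ = x := by group
      rwa [e'] at this
  have hCp : IsPGroup p (Subgroup.centralizer (Q : Set G)) := by
    rintro ⟨c, hc⟩
    have hcomm : ∀ w ∈ Q, c * w = w * c := fun w hw => (Subgroup.mem_centralizer_iff.mp hc w hw).symm
    obtain ⟨m, hm⟩ := exists_pow_eq_one c Q hQp hcomm (P : Set G) (by
      intro x hx
      have hx' : x ∈ P := hx
      apply hC
      refine Subgroup.mem_inf.mpr ⟨hPT (P.mul_mem (hnP.conj_mem _ hx' c) (P.inv_mem hx')), ?_⟩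
      have h5 := (Subgroup.mem_normalizer_iff.mp (hTC (hPT hx')) c⁻¹).mp ((Subgroup.centralizer (Q : Set G)).inv_mem hc)
      have e : c * x * c⁻¹ * x⁻¹ = c * (x * c⁻¹ * x⁻¹) := by group
      rw [e]
      exact Subgroup.mul_mem _ hc h5) P (isPGroup_pCore p G) hG
    exact ⟨m, Subtype.ext hm⟩
  have h1 : IsPGroup p ((T : Subgroup G) ⊔ Subgroup.centralizer (Q : Set G) : Subgroup G) :=
    T.2.to_sup_of_normal_right' hCp hTC
  have h2 := T.3 h1 le_sup_left
  have h3 : Subgroup.centralizer (Q : Set G) ≤ (T : Subgroup G) := by rw [← h2]; exact le_sup_right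
  exact le_trans (le_inf h3 le_rfl) hC

/-- Let G be a finite group of characteristic p (C_G(O_p(G)) ≤ O_p(G)), p prime, T a Sylow p-subgroup of G and Q a normal subgroup of T with C_T(Q) ≤ Q. Then C_G(Q) ≤ Q. -/
theorem result {G : Type*} [Group G] [Finite G] {p : ℕ} [Fact p.Prime] (hG : Subgroup.centralizer (Cfsg.pCore p G : Set G) ≤ Cfsg.pCore p G) (T : Sylow p G) (Q : Subgroup G) (hQT : Q ≤ (T : Subgroup G)) (hQn : (T : Subgroup G) ≤ Subgroup.normalizer (Q : Set G)) (hC : (T : Subgroup G) ⊓ Subgroup.centralizer (Q : Set G) ≤ Q) : Subgroup.centralizer (Q : Set G) ≤ Q := by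
  exact aux hG T Q hQT hQn hC

end Cfsg.Agent.S2960
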