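import Cfsg.Statements.S2961
import Mathlib
import Cfsg.Agent.LibLE11Basic
import Cfsg.Agent.S2960

set_option autoImplicit false
set_option linter.all false
open Cfsg

namespace Cfsg.Agent.S2961

open CfsgLib.LE11Basic in
theorem aux {G : Type*} [Group G] [Finite G] {p : ℕ} [Fact p.Prime] (hG : Subgroup.centralizer (Cfsg.pCore p G : Set G) ≤ Cfsg.pCore p G) (Q : Subgroup G) (hQp : IsPGroup p Q) (hQn : Cfsg.pCore p G ≤ Subgroup.normalizer (Q : Set G)) (hC : Subgroup.centralizer (Q : Set G) ≤ Q) (L : Subgroup G) (hQL : Q ≤ L) : Subgroup.centralizer (Cfsg.pCore p ↥L : Set ↥L) ≤ Cfsg.pCore p ↥L := by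
  have hnP := pCore_normal p G
  set P := Cfsg.pCore p G with hP
  rw [centralizer_pCore_iff]
  set W := (Cfsg.pCore p ↥L).map L.subtype with hW
  have hWp : IsPGroup p W := isPGroup_map_pCore L
  have hWL : W ≤ L := map_pCore_le L
  have hLW : L ≤ Subgroup.normalizer (W : Set G) := le_normalizer_map_pCore L
  have hPL : P ⊓ L ≤ W := by
    apply le_map_pCore L _ inf_le_right
    · have key : ∀ l ∈ L, ∀ x ∈ P ⊓ L, l * x * l⁻¹ ∈ P ⊓ L := by
        rintro l hl x ⟨h1, h2⟩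
        exact ⟨hnP.conj_mem _ h1 l, L.mul_mem (L.mul_mem hl h2) (L.inv_mem hl)⟩
      intro l hl
      rw [Subgroup.mem_normalizer_iff]
      intro x
      constructor
      · exact key l hl x
      · intro hx
        have := key l⁻¹ (L.inv_mem hl) _ hx
        have e' : l⁻¹ * (l * x * l⁻¹) * l⁻¹⁻¹ = x := by group
        rwa [e'] at this
    · exact (isPGroup_pCore p G).to_le inf_le_left
  set D := L ⊓ Subgroup.centralizer (W : Set G) with hD
  have hDL : D ≤ L := inf_le_left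
  have hDn : ∀ l ∈ L, ∀ x ∈ D, l * x * l⁻¹ ∈ D := by
      intro m hm y hy
      obtain ⟨hy1, hy2⟩ := Subgroup.mem_inf.mp hy
      refine Subgroup.mem_inf.mpr ⟨L.mul_mem (L.mul_mem hm hy1) (L.inv_mem hm), ?_⟩
      rw [Subgroup.mem_centralizer_iff] at hy2 ⊢
      intro w hw
      have h3 : m⁻¹ * w * m ∈ W := by
        have := (Subgroup.mem_normalizer_iff.mp (hLW (L.inv_mem hm)) w).mp hw
        simpa using this
      have h4 := hy2 _ h3
      calc w * (m * y * m⁻¹) = m * ((m⁻¹ * w * m) * y) * m⁻¹ := by group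
        _ = m * (y * (m⁻¹ * w * m)) * m⁻¹ := by rw [h4]
        _ = m * y * m⁻¹ * w := by group
  have hDW : ∀ d ∈ D, ∀ w ∈ W, d * w = w * d := fun d hd w hw =>
    (Subgroup.mem_centralizer_iff.mp (Subgroup.mem_inf.mp hd).2 w hw).symm
  -- the kernel K = {l ∈ L : ∀ x ∈ P, l x l⁻¹ x⁻¹ ∈ P ⊓ L}
  let U : Subgroup G :=
    { carrier := {l | l ∈ L ∧ ∀ x ∈ P, l * x * l⁻¹ * x⁻¹ ∈ P ⊓ L}
      one_mem' := ⟨L.one_mem, fun x hx => by simp⟩
      mul_mem' := by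
        rintro a b ⟨ha, ha'⟩ ⟨hb, hb'⟩
        refine ⟨L.mul_mem ha hb, fun x hx => ?_⟩
        have h1 := hb' x hx
        have h2 := ha' (b * x * b⁻¹) (hnP.conj_mem _ hx b)
        have := (P ⊓ L).mul_mem h2 h1
        have e : a * (b * x * b⁻¹) * a⁻¹ * (b * x * b⁻¹)⁻¹ * (b * x * b⁻¹ * x⁻¹) = a * b * x * (a * b)⁻¹ * x⁻¹ := by group
        rwa [e] at this
      inv_mem' := by
        rintro a ⟨ha, ha'⟩
        refine ⟨L.inv_mem ha, fun x hx => ?_⟩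
        have h1 := ha' (a⁻¹ * x * a) (by simpa using hnP.conj_mem _ hx a⁻¹)
        have h2 := (P ⊓ L).inv_mem h1
        have e : (a * (a⁻¹ * x * a) * a⁻¹ * (a⁻¹ * x * a)⁻¹)⁻¹ = a⁻¹ * x * a * x⁻¹ := by group
        rw [e] at h2
        simpa using h2 }
  have hUn : ∀ l ∈ L, ∀ u ∈ U, l * u * l⁻¹ ∈ U := by
    rintro l hl u ⟨hu, hu'⟩
    refine ⟨L.mul_mem (L.mul_mem hl hu) (L.inv_mem hl), fun x hx => ?_⟩
    have h1 := hu' (l⁻¹ * x * l) (by simpa using hnP.conj_mem _ hx l⁻¹)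
    obtain ⟨h2, h3⟩ := h1
    have h4 : l * (u * (l⁻¹ * x * l) * u⁻¹ * (l⁻¹ * x * l)⁻¹) * l⁻¹ ∈ P ⊓ L :=
      ⟨hnP.conj_mem _ h2 l, L.mul_mem (L.mul_mem hl h3) (L.inv_mem hl)⟩
    have e : l * (u * (l⁻¹ * x * l) * u⁻¹ * (l⁻¹ * x * l)⁻¹) * l⁻¹ = l * u * l⁻¹ * x * (l * u * l⁻¹)⁻¹ * x⁻¹ := by group
    rwa [e] at h4
  have hQU : Q ≤ U := by
    intro q hq
    refine ⟨hQL hq, fun x hx => ?_⟩
    have h1 : q * x * q⁻¹ * x⁻¹ ∈ P := P.mul_mem (hnP.conj_mem _ hx q) (P.inv_mem hx)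
    have h2 : q * x * q⁻¹ * x⁻¹ ∈ Q := by
      have h3 := (Subgroup.mem_normalizer_iff.mp (hQn hx) q⁻¹).mp (Q.inv_mem hq)
      have e : q * x * q⁻¹ * x⁻¹ = q * (x * q⁻¹ * x⁻¹) := by group
      rw [e]; exact Q.mul_mem hq h3
    exact ⟨h1, hQL h2⟩
  -- D ⊓ U is a p-group
  have hDUp : IsPGroup p (D ⊓ U : Subgroup G) := by
    rintro ⟨c, hc⟩
    obtain ⟨hcD, hcU⟩ := Subgroup.mem_inf.mp hc
    obtain ⟨m, hm⟩ := exists_pow_eq_one c W hWp (hDW c hcD) (P : Set G)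
      (fun x hx => hPL (hcU.2 x hx)) P (isPGroup_pCore p G) hG
    exact ⟨m, Subtype.ext hm⟩
  have norm_of : ∀ S : Subgroup G, (∀ l ∈ L, ∀ x ∈ S, l * x * l⁻¹ ∈ S) → L ≤ Subgroup.normalizer (S : Set G) := by
    intro S key l hl
    rw [Subgroup.mem_normalizer_iff]
    intro x
    constructor
    · exact key l hl x
    · intro hx
      have := key l⁻¹ (L.inv_mem hl) _ hx
      have e' : l⁻¹ * (l * x * l⁻¹) * l⁻¹⁻¹ = x := by group
      rwa [e'] at this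
  have hDUW : D ⊓ U ≤ W := by
    apply le_map_pCore L _ (inf_le_left.trans hDL)
    · apply norm_of
      rintro l hl x ⟨h1, h2⟩
      exact ⟨hDn l hl x h1, hUn l hl x h2⟩
    · exact hDUp
  apply le_map_pCore L _ hDL (norm_of D hDn)
  rintro ⟨c, hc⟩
  obtain ⟨m, hm⟩ := exists_pow_eq_one c W hWp (hDW c hc) (Q : Set G) (by
    intro q hq
    apply hDUW
    have hq' : q ∈ Q := hq
    refine ⟨?_, ?_⟩
    · have h1 := hDn q (hQL hq') c⁻¹ (D.inv_mem hc)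
      have h2 := D.mul_mem hc h1
      have e : c * (q * c⁻¹ * q⁻¹) = c * q * c⁻¹ * q⁻¹ := by group
      rwa [e] at h2
    · exact U.mul_mem (hUn c (hDL hc) q (hQU hq')) (U.inv_mem (hQU hq'))) Q hQp hC
  exact ⟨m, Subtype.ext hm⟩

/-- Let G be a finite group of characteristic p (C_G(O_p(G)) ≤ O_p(G)), p prime, T a Sylow p-subgroup of G and Q a normal subgroup of T with C_T(Q) ≤ Q. Then every subgroup L of G containing Q has characteristic p: C_L(O_p(L)) ≤ O_p(L). -/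
theorem result {G : Type*} [Group G] [Finite G] {p : ℕ} [Fact p.Prime] (hG : Subgroup.centralizer (Cfsg.pCore p G : Set G) ≤ Cfsg.pCore p G) (T : Sylow p G) (Q : Subgroup G) (hQT : Q ≤ (T : Subgroup G)) (hQn : (T : Subgroup G) ≤ Subgroup.normalizer (Q : Set G)) (hC : (T : Subgroup G) ⊓ Subgroup.centralizer (Q : Set G) ≤ Q) (L : Subgroup G) (hQL : Q ≤ L) : Subgroup.centralizer (Cfsg.pCore p ↥L : Set ↥L) ≤ Cfsg.pCore p ↥L := by
  have h := Cfsg.Agent.S2960.result hG T Q hQT hQn hC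
  exact aux hG Q (T.2.to_le hQT) ((CfsgLib.LE11Basic.pCore_le_sylow T).trans hQn) h L hQL

end Cfsg.Agent.S2961
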