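import Cfsg.Statements.S2963
import Mathlib
import Cfsg.Agent.EqBase

set_option autoImplicit false
open Cfsg

namespace Cfsg.Agent.S2963

open scoped Pointwise


/-- Let n be odd. If the symmetric group of degree n is a minimal parabolic group for the prime 2, that is, a Sylow 2-subgroup is not normal and lies in exactly one maximal subgroup, then n = 2^m + 1 for some natural number m. -/
theorem result (n : ℕ) (hn : Odd n) (h : Cfsg.IsPMinimal 2 (Equiv.Perm (Fin n))) : ∃ m : ℕ, n = 2 ^ m + 1 := by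
  classical
  haveI : Fact (Nat.Prime 2) := ⟨Nat.prime_two⟩
  obtain ⟨S⟩ : Nonempty (Sylow 2 (Equiv.Perm (Fin n))) := inferInstance
  obtain ⟨hnn, M, ⟨hM, hSM⟩, huniq⟩ := h S
  have huni : ∀ K : Subgroup (Equiv.Perm (Fin n)), K ≠ ⊤ → (S : Subgroup (Equiv.Perm (Fin n))) ≤ K → K ≤ M := by
    intro K hK hSK
    obtain ⟨M', hM', hKM'⟩ := (eq_top_or_exists_le_coatom K).resolve_left hK
    have := huniq M' ⟨hM', hSK.trans hKM'⟩
    rwa [this] at hKM'
  have hcard : Nat.card (Fin n) = n := by simp
  obtain ⟨x, hx⟩ := IsPGroup.nonempty_fixed_point_of_prime_not_dvd_card S.isPGroup' (Fin n) (by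
    rw [hcard, Nat.two_dvd_ne_zero]; exact Nat.odd_iff.1 hn)
  have hxS : (S : Subgroup (Equiv.Perm (Fin n))) ≤ MulAction.stabilizer (Equiv.Perm (Fin n)) x := by
    intro s hs
    rw [MulAction.mem_stabilizer_iff]
    exact hx ⟨s, hs⟩
  by_cases h1 : ∀ y : Fin n, y = x
  · exfalso
    apply hnn
    have : Subsingleton (Equiv.Perm (Fin n)) := by
      refine ⟨fun a b => ?_⟩
      ext i
      rw [h1 (a i), h1 (b i)]
    rw [Subsingleton.elim (S : Subgroup (Equiv.Perm (Fin n))) ⊤]
    infer_instance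
  push Not at h1
  obtain ⟨y, hy⟩ := h1
  by_cases h2 : ∀ z, z ≠ x → z ∈ MulAction.orbit (S : Subgroup (Equiv.Perm (Fin n))) y
  · have h3 : MulAction.orbit (S : Subgroup (Equiv.Perm (Fin n))) y = {x}ᶜ := by
      ext z
      rw [Set.mem_compl_iff, Set.mem_singleton_iff]
      refine ⟨?_, h2 z⟩
      rintro ⟨s, hs⟩ rfl
      apply hy
      have h4 : (s : Equiv.Perm (Fin n)) z = z := hx s
      have h5 : (s : Equiv.Perm (Fin n)) y = z := hs
      exact (s : Equiv.Perm (Fin n)).injective (h5.trans h4.symm)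
    obtain ⟨m, hm⟩ := S.isPGroup'.card_orbit y
    refine ⟨m, ?_⟩
    have h4 : Nat.card (MulAction.orbit (S : Subgroup (Equiv.Perm (Fin n))) y) = n - 1 := by
      rw [h3, Nat.card_coe_set_eq, Set.ncard_compl, Set.ncard_singleton, hcard]
    have h6 : Nat.card (MulAction.orbit (S : Subgroup (Equiv.Perm (Fin n))) y) = 2 ^ m := hm
    rw [h4] at h6
    have h5 : 0 < n := Fin.pos x
    omega
  · exfalso
    push Not at h2
    obtain ⟨z, hzx, hz⟩ := h2
    have hxtop : MulAction.stabilizer (Equiv.Perm (Fin n)) x ≠ ⊤ := by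
      intro h3
      have h4 : Equiv.swap x y ∈ MulAction.stabilizer (Equiv.Perm (Fin n)) x := by rw [h3]; exact Subgroup.mem_top _
      rw [MulAction.mem_stabilizer_iff, Equiv.Perm.smul_def, Equiv.swap_apply_left] at h4
      exact hy h4
    have hstab := huni _ hxtop hxS
    set Δ : Set (Fin n) := insert x (MulAction.orbit (S : Subgroup (Equiv.Perm (Fin n))) y) with hΔ
    have hyΔ : y ∈ Δ := Set.mem_insert_of_mem _ (MulAction.mem_orbit_self y)
    have hzΔ : z ∉ Δ := by
      rw [hΔ, Set.mem_insert_iff]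
      rintro (h3 | h3)
      · exact hzx h3
      · exact hz h3
    have hSΔ : (S : Subgroup (Equiv.Perm (Fin n))) ≤ MulAction.stabilizer (Equiv.Perm (Fin n)) Δ := by
      intro s hs
      rw [MulAction.mem_stabilizer_set]
      intro a
      have hsx : s x = x := hx ⟨s, hs⟩
      rw [hΔ, Set.mem_insert_iff, Set.mem_insert_iff]
      constructor
      · rintro (h3 | h3)
        · left
          exact s.injective (h3.trans hsx.symm)
        · right
          have := MulAction.mem_orbit_of_mem_orbit (⟨s, hs⟩⁻¹ : (S : Subgroup (Equiv.Perm (Fin n)))) h3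
          rw [show (⟨s, hs⟩⁻¹ : (S : Subgroup (Equiv.Perm (Fin n)))) • (s • a) = a from inv_smul_smul (⟨s, hs⟩ : (S : Subgroup (Equiv.Perm (Fin n)))) a] at this
          exact this
      · rintro (h3 | h3)
        · left; rw [h3]; exact hsx
        · right
          exact MulAction.mem_orbit_of_mem_orbit (⟨s, hs⟩ : (S : Subgroup (Equiv.Perm (Fin n)))) h3
    have hΔtop : MulAction.stabilizer (Equiv.Perm (Fin n)) Δ ≠ ⊤ := by
      intro h3
      have h4 : Equiv.swap y z ∈ MulAction.stabilizer (Equiv.Perm (Fin n)) Δ := by rw [h3]; exact Subgroup.mem_top _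
      rw [MulAction.mem_stabilizer_set] at h4
      have h5 := (h4 y).2 hyΔ
      rw [Equiv.Perm.smul_def, Equiv.swap_apply_left] at h5
      exact hzΔ h5
    have hstab2 := huni _ hΔtop hSΔ
    have hswap : Equiv.swap x y ∈ M := by
      apply hstab2
      rw [MulAction.mem_stabilizer_set]
      intro a
      have hxΔ : x ∈ Δ := Set.mem_insert _ _
      rw [Equiv.Perm.smul_def]
      rcases eq_or_ne a x with rfl | hax
      · rw [Equiv.swap_apply_left]; exact ⟨fun _ => hxΔ, fun _ => hyΔ⟩
      · rcases eq_or_ne a y with rfl | hay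
        · rw [Equiv.swap_apply_right]; exact ⟨fun _ => hyΔ, fun _ => hxΔ⟩
        · rw [Equiv.swap_apply_of_ne_of_ne hax hay]
    apply hM.1
    rw [eq_top_iff, ← Equiv.Perm.closure_isSwap, Subgroup.closure_le]
    have hsw : ∀ a b, a ≠ x → b ≠ x → Equiv.swap a b ∈ M := by
      intro a b ha hb
      apply hstab
      rw [MulAction.mem_stabilizer_iff, Equiv.Perm.smul_def]
      exact Equiv.swap_apply_of_ne_of_ne ha.symm hb.symm
    have hsx : ∀ b, b ≠ x → Equiv.swap x b ∈ M := by
      intro b hb
      rcases eq_or_ne b y with rfl | hby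
      · exact hswap
      · have h3 : Equiv.swap y b * Equiv.swap x y * Equiv.swap y b = Equiv.swap x b := by
          rw [Equiv.swap_comm x b]
          exact Equiv.swap_mul_swap_mul_swap hy.symm hb.symm
        rw [← h3]
        exact mul_mem (mul_mem (hsw _ _ hy hb) hswap) (hsw _ _ hy hb)
    rintro _ ⟨a, b, hab, rfl⟩
    change Equiv.swap a b ∈ M
    rcases eq_or_ne a x with rfl | ha
    · exact hsx b hab.symm
    · rcases eq_or_ne b x with rfl | hb
      · rw [Equiv.swap_comm]; exact hsx a ha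
      · exact hsw a b ha hb

end Cfsg.Agent.S2963
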