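import Cfsg.Statements.S2998
import Mathlib
import Cfsg.Agent.LibLE11Syl

set_option autoImplicit false
set_option linter.all false
open Cfsg

namespace Cfsg.Agent.S2998

open CfsgLib.LE11Syl
open scoped Pointwise

/-- Let G be a finite group, p a prime, P a Sylow p-subgroup of G and x ∈ P an element such that N_G(R) ≤ C_G(x) for every nontrivial subgroup R of P. Then P ≤ C_G(x); every G-conjugate of x lying in P equals x (so g ∈ C_G(x) whenever g x g⁻¹ ∈ P); and for every normal subgroup N of G, the image of x in G ⧸ N has the same property with respect to the image of P: the normalizer of every nontrivial subgroup of the image of P centralizes the image of x. -/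
theorem result {G : Type*} [Group G] [Finite G] {p : ℕ} [Fact p.Prime] (P : Sylow p G) (x : G) (hxP : x ∈ (P : Subgroup G)) (hlc : ∀ R : Subgroup G, R ≤ (P : Subgroup G) → R ≠ ⊥ → Subgroup.normalizer (R : Set G) ≤ Subgroup.centralizer ({x} : Set G)) : (P : Subgroup G) ≤ Subgroup.centralizer ({x} : Set G) ∧ (∀ g : G, g * x * g⁻¹ ∈ (P : Subgroup G) → g * x * g⁻¹ = x) ∧ ∀ (N : Subgroup G) [N.Normal], ∀ R : Subgroup (G ⧸ N), R ≤ (P : Subgroup G).map (QuotientGroup.mk' N) → R ≠ ⊥ → Subgroup.normalizer (R : Set (G ⧸ N)) ≤ Subgroup.centralizer ({(QuotientGroup.mk x : G ⧸ N)} : Set (G ⧸ N)) := by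
  have h1 : (P : Subgroup G) ≤ Subgroup.centralizer ({x} : Set G) := by
    by_cases hP : (P : Subgroup G) = ⊥
    · rw [hP]; exact bot_le
    · exact Subgroup.le_normalizer.trans (hlc _ le_rfl hP)
  refine ⟨h1, ?_, ?_⟩
  · intro g hg
    by_cases hx1 : x = 1
    · rw [hx1]; group
    set y := g * x * g⁻¹ with hy
    have hy1 : y ≠ 1 := by
      intro h
      apply hx1
      have : x = g⁻¹ * y * g := by rw [hy]; group
      rw [this, h]; group
    have h2 : Subgroup.centralizer ({y} : Set G) ≤ Subgroup.centralizer ({x} : Set G) := by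
      refine le_trans ?_ (hlc (Subgroup.zpowers y) (by rwa [Subgroup.zpowers_le]) (by rwa [Ne, Subgroup.zpowers_eq_bot]))
      intro c hc
      rw [Subgroup.mem_centralizer_singleton_iff] at hc
      rw [Subgroup.mem_normalizer_iff]
      intro z
      constructor
      · rintro ⟨k, rfl⟩
        refine ⟨k, ?_⟩
        have h3 : Commute c (y ^ k) := (show Commute c y from hc).zpow_right k
        show y ^ k = c * y ^ k * c⁻¹
        rw [h3.eq]; group
      · rintro ⟨k, hk⟩
        refine ⟨k, ?_⟩
        have h3 : Commute c (y ^ k) := (show Commute c y from hc).zpow_right k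
        have hk' : y ^ k = c * z * c⁻¹ := hk
        show y ^ k = z
        have h4 : z = c⁻¹ * y ^ k * c := by rw [hk']; group
        rw [h4, mul_assoc, ← h3.eq]; group
    have h3 : MulAut.conj g • (P : Subgroup G) ≤ Subgroup.centralizer ({x} : Set G) := by
      refine le_trans ?_ h2
      intro z hz
      rw [Subgroup.mem_pointwise_smul_iff_inv_smul_mem] at hz
      have h4 := h1 hz
      rw [Subgroup.mem_centralizer_singleton_iff] at h4 ⊢
      have e : (MulAut.conj g)⁻¹ • z = g⁻¹ * z * g := by rw [← map_inv]; simp [MulAut.smul_def]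
      rw [e] at h4
      rw [hy]
      calc z * (g * x * g⁻¹) = g * ((g⁻¹ * z * g) * x) * g⁻¹ := by group
        _ = g * (x * (g⁻¹ * z * g)) * g⁻¹ := by rw [h4]
        _ = _ := by group
    have hS : IsSyl p (P : Subgroup G) (Subgroup.centralizer ({x} : Set G)) := (isSyl_top P).mono h1 le_top
    have hcardP : Nat.card (MulAut.conj g • (P : Subgroup G) : Subgroup G) = Nat.card (P : Subgroup G) := card_conj g _
    have hSg : IsPGroup p (MulAut.conj g • (P : Subgroup G) : Subgroup G) := by
      rw [IsPGroup.iff_card, hcardP, ← IsPGroup.iff_card]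
      exact P.isPGroup'
    obtain ⟨c, hc, hle⟩ := hS.conj_le h3 hSg
    have heq : MulAut.conj (c * g) • (P : Subgroup G) = P := by
      rw [map_mul, mul_smul]
      exact Subgroup.eq_of_le_of_card_ge hle (by rw [card_conj, card_conj])
    have hcg : c * g ∈ Subgroup.centralizer ({x} : Set G) := by
      have hP : (P : Subgroup G) ≠ ⊥ := by
        intro h
        rw [h, Subgroup.mem_bot] at hxP
        exact hx1 hxP
      apply hlc _ le_rfl hP
      rw [Subgroup.mem_normalizer_iff'']
      intro z
      have h := Subgroup.mem_pointwise_smul_iff_inv_smul_mem (a := MulAut.conj (c * g)) (S := (P : Subgroup G)) (x := z)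
      have e : (MulAut.conj (c * g))⁻¹ • z = (c * g)⁻¹ * z * (c * g) := by
        rw [← map_inv, MulAut.smul_def, MulAut.conj_apply, inv_inv]
      rw [e, heq] at h
      exact h
    have hgx : g ∈ Subgroup.centralizer ({x} : Set G) := by
      have := Subgroup.mul_mem _ (Subgroup.inv_mem _ hc) hcg
      simpa using this
    rw [Subgroup.mem_centralizer_singleton_iff] at hgx
    rw [hy, hgx]; group
  · intro N hN R hRP hR
    -- R0 = preimage in P
    set R0 := (P : Subgroup G) ⊓ R.comap (QuotientGroup.mk' N) with hR0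
    have hmap : R0.map (QuotientGroup.mk' N) = R := by
      apply le_antisymm
      · rintro _ ⟨y, hy, rfl⟩
        exact hy.2
      · intro r hr
        obtain ⟨y, hy, rfl⟩ := hRP hr
        exact ⟨y, ⟨hy, hr⟩, rfl⟩
    have hR0ne : R0 ≠ ⊥ := by
      rintro h
      rw [h, Subgroup.map_bot] at hmap
      exact hR hmap.symm
    have hSyl : IsSyl p R0 (R.comap (QuotientGroup.mk' N)) := by
      obtain ⟨S, hS, hle⟩ := exists_isSyl_ge (p := p) (inf_le_right : R0 ≤ R.comap (QuotientGroup.mk' N)) (P.isPGroup'.to_le inf_le_left)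
      have hPN : IsSyl p ((P : Subgroup G) ⊓ N) N := (isSyl_top P).inf_of_normal le_top Subgroup.le_normalizer_of_normal
      have hNM : N ≤ R.comap (QuotientGroup.mk' N) := by
        intro n hn
        show (QuotientGroup.mk' N) n ∈ R
        have : (QuotientGroup.mk' N) n = 1 := (QuotientGroup.eq_one_iff n).mpr hn
        rw [this]; exact R.one_mem
      have hPNR : (P : Subgroup G) ⊓ N ≤ R0 := le_inf inf_le_left (inf_le_right.trans hNM)
      have hSN : S ⊓ N = (P : Subgroup G) ⊓ N :=
        hPN.eq_of_le inf_le_right (hS.2.1.to_le inf_le_left) (le_inf (hPNR.trans hle) inf_le_right)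
      have hSR : S = R0 := by
        apply le_antisymm _ hle
        intro s hs
        have h2 : (QuotientGroup.mk' N) s ∈ R := hS.1 hs
        rw [← hmap] at h2
        obtain ⟨r, hr, hrs⟩ := h2
        have h3 : r⁻¹ * s ∈ N := QuotientGroup.eq.mp hrs
        have h4 : r⁻¹ * s ∈ S ⊓ N := ⟨S.mul_mem (S.inv_mem (hle hr)) hs, h3⟩
        rw [hSN] at h4
        have h5 := R0.mul_mem hr (hPNR h4)
        have e : r * (r⁻¹ * s) = s := by group
        rwa [e] at h5
      rw [← hSR]; exact hS
    intro g' hg'
    obtain ⟨g, rfl⟩ := QuotientGroup.mk_surjective g'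
    have hgM : g ∈ Subgroup.normalizer ((R.comap (QuotientGroup.mk' N) : Subgroup G) : Set G) := by
      rw [Subgroup.mem_normalizer_iff] at hg' ⊢
      intro z
      exact hg' (QuotientGroup.mk z)
    obtain ⟨m, hm, hmg⟩ := hSyl.frattini hgM
    have hmg2 := hlc R0 inf_le_left hR0ne hmg
    -- m = r n
    have h2 : (QuotientGroup.mk' N) m ∈ R := hm
    rw [← hmap] at h2
    obtain ⟨r, hr, hrm⟩ := h2
    have hrx : r ∈ Subgroup.centralizer ({x} : Set G) := h1 hr.1
    have h3 : r⁻¹ * (m * g) ∈ Subgroup.centralizer ({x} : Set G) := Subgroup.mul_mem _ (Subgroup.inv_mem _ hrx) hmg2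
    rw [Subgroup.mem_centralizer_singleton_iff] at h3 ⊢
    have h4 : (QuotientGroup.mk g : G ⧸ N) = QuotientGroup.mk (r⁻¹ * (m * g)) := by
      have : (QuotientGroup.mk (r⁻¹ * (m * g)) : G ⧸ N) = ((QuotientGroup.mk r : G ⧸ N))⁻¹ * ((QuotientGroup.mk m : G ⧸ N) * QuotientGroup.mk g) := rfl
      rw [this]
      have hrm' : (QuotientGroup.mk r : G ⧸ N) = QuotientGroup.mk m := hrm
      rw [hrm']; group
    rw [h4, ← QuotientGroup.mk_mul, ← QuotientGroup.mk_mul, h3]

end Cfsg.Agent.S2998
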