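import Cfsg.Statements.S3003
import Mathlib
import Cfsg.Agent.LibLE11Syl
import Cfsg.Agent.LibCoprime2

set_option autoImplicit false
set_option linter.all false
open Cfsg

namespace Cfsg.Agent.S3003

open CfsgLib.LE11Syl
open scoped Pointwise

/-- Let G be a finite group, p a prime and Q a large p-subgroup of G: C_G(Q) ≤ Q and N_G(U) ≤ N_G(Q) for every nontrivial subgroup U of C_G(Q). Let Q ≤ G₁ ≤ G, let R be a subgroup of order prime to p normalized by G₁, and let U ≤ G₁ be a p-subgroup. If U contains a nontrivial element which is G₁-conjugate to an element of Z(Q), then C_R(U) = 1. In particular, if U is elementary abelian of order at least p² and every maximal subgroup of U contains a nontrivial element G₁-conjugate into Z(Q), then R = 1. -/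
theorem result {G : Type*} [Group G] [Finite G] {p : ℕ} [Fact p.Prime] (Q : Subgroup G) (hQp : IsPGroup p ↥Q) (hlarge : Cfsg.IsLarge Q) (G₁ : Subgroup G) (hQG : Q ≤ G₁) (R : Subgroup G) (hR : (Nat.card ↥R).Coprime p) (hGR : G₁ ≤ Subgroup.normalizer (R : Set G)) (U : Subgroup G) (hUG : U ≤ G₁) (hUp : IsPGroup p ↥U) : ((∃ x ∈ U, x ≠ 1 ∧ ∃ g ∈ G₁, g * x * g⁻¹ ∈ Q ⊓ Subgroup.centralizer (Q : Set G)) → R ⊓ Subgroup.centralizer (U : Set G) = ⊥) ∧ (Cfsg.IsElementaryAbelian p U → p ^ 2 ≤ Nat.card ↥U → (∀ U₀ : Subgroup G, U₀ ≤ U → IsCoatom (U₀.subgroupOf U) → ∃ x ∈ U₀, x ≠ 1 ∧ ∃ g ∈ G₁, g * x * g⁻¹ ∈ Q ⊓ Subgroup.centralizer (Q : Set G)) → R = ⊥) := by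
  have hp1 : 1 < p := (Fact.out : p.Prime).one_lt
  -- R ∩ Q = 1
  have hRQ : R ⊓ Q = ⊥ := by
    rw [← Subgroup.card_eq_one]
    have h1 : Nat.card (R ⊓ Q : Subgroup G) ∣ Nat.card R := Subgroup.card_dvd_of_le inf_le_left
    have h2 : Nat.card (R ⊓ Q : Subgroup G) ∣ Nat.card Q := Subgroup.card_dvd_of_le inf_le_right
    obtain ⟨k, hk⟩ := IsPGroup.iff_card.mp hQp
    rw [hk] at h2
    exact Nat.eq_one_of_dvd_coprimes (Nat.Coprime.pow_right k hR) h1 h2
  have hz : ∀ z ∈ Q ⊓ Subgroup.centralizer (Q : Set G), z ≠ 1 → R ⊓ Subgroup.centralizer ({z} : Set G) = ⊥ := by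
    intro z hz hz1
    rw [eq_bot_iff]
    intro r hr
    have h1 : r ∈ Subgroup.normalizer (Q : Set G) := by
      apply hlarge.2 (Subgroup.zpowers z) (by rw [Subgroup.zpowers_le]; exact hz.2) (by rwa [Ne, Subgroup.zpowers_eq_bot])
      rw [← conj_smul_eq_iff]
      apply Subgroup.eq_of_le_of_card_ge _ (by rw [card_conj])
      intro y hy
      rw [mem_conj_smul] at hy
      obtain ⟨k, hk⟩ := hy
      have hk' : z ^ k = r⁻¹ * y * r := hk
      have h2 : r * z = z * r := Subgroup.mem_centralizer_singleton_iff.mp hr.2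
      have h3 : Commute r (z ^ k) := (show Commute r z from h2).zpow_right k
      have h4 : y = z ^ k := by
        have : y = r * z ^ k * r⁻¹ := by rw [hk']; group
        rw [this, h3.eq]; group
      rw [h4]; exact ⟨k, rfl⟩
    -- r centralizes Q
    have h5 : r ∈ Subgroup.centralizer (Q : Set G) := by
      rw [Subgroup.mem_centralizer_iff]
      intro q hq
      have h6 : r * q * r⁻¹ * q⁻¹ ∈ R ⊓ Q := by
        refine ⟨?_, ?_⟩
        · have h7 := (Subgroup.mem_normalizer_iff.mp (hGR (hQG hq)) r⁻¹).mp (R.inv_mem hr.1)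
          have e : r * q * r⁻¹ * q⁻¹ = r * (q * r⁻¹ * q⁻¹) := by group
          rw [SetLike.mem_coe, e]; exact R.mul_mem hr.1 h7
        · exact Q.mul_mem ((Subgroup.mem_normalizer_iff.mp h1 q).mp hq) (Q.inv_mem hq)
      rw [hRQ, Subgroup.mem_bot] at h6
      have h7 : r * q = (r * q * r⁻¹ * q⁻¹) * (q * r) := by group
      rw [h7, h6, one_mul]
    have h8 : r ∈ R ⊓ Q := ⟨hr.1, hlarge.1 h5⟩
    rwa [hRQ] at h8
  have hmain : ∀ U : Subgroup G, (∃ x ∈ U, x ≠ 1 ∧ ∃ g ∈ G₁, g * x * g⁻¹ ∈ Q ⊓ Subgroup.centralizer (Q : Set G)) → R ⊓ Subgroup.centralizer (U : Set G) = ⊥ := by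
    rintro U ⟨x, hxU, hx1, g, hg, hgx⟩
    rw [eq_bot_iff]
    rintro r ⟨hr1, hr2⟩
    have h1 : g * x * g⁻¹ ≠ 1 := by
      intro h
      apply hx1
      have : x = g⁻¹ * (g * x * g⁻¹) * g := by group
      rw [this, h]; group
    have h2 := hz _ hgx h1
    have h3 : g * r * g⁻¹ ∈ R ⊓ Subgroup.centralizer ({g * x * g⁻¹} : Set G) := by
      refine ⟨(Subgroup.mem_normalizer_iff.mp (hGR hg) r).mp hr1, ?_⟩
      show _ ∈ Subgroup.centralizer ({g * x * g⁻¹} : Set G)
      rw [Subgroup.mem_centralizer_singleton_iff]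
      have h4 : x * r = r * x := Subgroup.mem_centralizer_iff.mp hr2 x hxU
      calc g * r * g⁻¹ * (g * x * g⁻¹) = g * (r * x) * g⁻¹ := by group
        _ = g * (x * r) * g⁻¹ := by rw [h4]
        _ = _ := by group
    rw [h2, Subgroup.mem_bot] at h3
    rw [Subgroup.mem_bot]
    have : r = g⁻¹ * (g * r * g⁻¹) * g := by group
    rw [this, h3]; group
  refine ⟨hmain U, fun hUe hU2 hmax => ?_⟩
  haveI := hUe.1
  have hUcard := IsPGroup.iff_card.mp hUp
  have hgen := CfsgLib.Coprime2.generation_cyclic_quotient (A := U) (K := R) (hUG.trans hGR) (by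
    obtain ⟨k, hk⟩ := hUcard
    rw [hk]; exact (Nat.Coprime.pow_left k hR.symm))
  rw [← hgen, eq_bot_iff]
  apply iSup₂_le
  rintro B ⟨hBU, a, ha, hle⟩
  have hap : a ^ p = 1 := hUe.2 a ha
  have hUne : U ≠ ⊥ := by
    rintro rfl
    rw [Subgroup.card_bot] at hU2
    have : p ^ 2 > 1 := Nat.one_lt_pow (by norm_num) hp1
    omega
  by_cases hBU' : B = U
  · -- take any coatom
    subst hBU'
    haveI : Nontrivial ↥B := (Subgroup.nontrivial_iff_ne_bot _).mpr hUne
    obtain ⟨C, hC, _⟩ := (eq_top_or_exists_le_coatom (⊥ : Subgroup ↥B)).resolve_left bot_ne_top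
    have h1 := hmain _ (hmax (C.map B.subtype) (Subgroup.map_subtype_le _) (by
      have : (C.map B.subtype).subgroupOf B = C := Subgroup.comap_map_eq_self_of_injective B.subtype_injective C
      rwa [this]))
    rw [← h1]
    exact inf_le_inf_left _ (Subgroup.centralizer_le (SetLike.coe_subset_coe.mpr (Subgroup.map_subtype_le _)))
  · have hlt : B < U := lt_of_le_of_ne hBU hBU'
    have h1 := hmain B (hmax B hBU (by
      refine ⟨fun h => ?_, fun X hX => ?_⟩
      · rw [Subgroup.subgroupOf_eq_top] at h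
        exact absurd h (not_le_of_gt hlt)
      · obtain ⟨u, huX, huB⟩ := SetLike.exists_of_lt hX
        have hUX : U ≤ X.map U.subtype := by
          have hBX : B ≤ X.map U.subtype := by
            intro b hb
            exact ⟨⟨b, hBU hb⟩, hX.le (Subgroup.mem_subgroupOf.mpr hb), rfl⟩
          have haX : a ∈ X.map U.subtype := by
            have huB' : (u : G) ∉ B := fun h => huB (Subgroup.mem_subgroupOf.mpr h)
            have h2 : (u : G) ∈ B ⊔ Subgroup.zpowers a := hle u.2
            have hcommU : ∀ x ∈ U, ∀ y ∈ U, x * y = y * x := fun x hx y hy => congrArg Subtype.val (hUe.1.is_comm.comm (⟨x, hx⟩ : U) ⟨y, hy⟩)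
            have h3 : ((B ⊔ Subgroup.zpowers a : Subgroup G) : Set G) = (B : Set G) * (Subgroup.zpowers a : Set G) := by
              apply Subgroup.coe_mul_of_right_le_normalizer_left
              rw [Subgroup.zpowers_le, ← conj_smul_eq_iff]
              apply Subgroup.eq_of_le_of_card_ge _ (by rw [card_conj])
              intro y hy
              rw [mem_conj_smul] at hy
              have h5 : y = a⁻¹ * y * a := by
                have h6 := hcommU _ (hBU hy) a ha
                calc y = (a * (a⁻¹ * y * a)) * a⁻¹ := by group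
                  _ = ((a⁻¹ * y * a) * a) * a⁻¹ := by rw [h6]
                  _ = a⁻¹ * y * a := by group
              rw [h5]; exact hy
            have h4 : (u : G) ∈ (B : Set G) * (Subgroup.zpowers a : Set G) := by rw [← h3]; exact h2
            obtain ⟨b, hb, _, ⟨k, rfl⟩, hbk⟩ := h4
            have hak : a ^ k ∈ X.map U.subtype := by
              have h5 : a ^ k = b⁻¹ * u := by rw [← hbk]; simp
              rw [h5]
              exact Subgroup.mul_mem _ (Subgroup.inv_mem _ (hBX hb)) ⟨u, huX, rfl⟩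
            have hpk : ¬ (p : ℤ) ∣ k := by
              rintro ⟨l, hl⟩
              apply huB'
              have h5 : a ^ k = 1 := by rw [hl, zpow_mul, zpow_natCast, hap, one_zpow]
              have h6 : (u : G) = b := by rw [← hbk]; show b * a ^ k = b; rw [h5, mul_one]
              rw [h6]; exact hb
            have hcop : IsCoprime (p : ℤ) k := (Int.prime_iff_natAbs_prime.mpr (by simpa using (Fact.out : p.Prime))).coprime_iff_not_dvd.mpr hpk
            obtain ⟨s, t, hst⟩ := hcop
            have h5 : a = (a ^ k) ^ t := by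
              rw [← zpow_mul]
              conv_lhs => rw [← zpow_one a, ← hst]
              rw [zpow_add, mul_comm s, zpow_mul, zpow_natCast, hap, one_zpow, one_mul, mul_comm t]
            rw [h5]; exact Subgroup.zpow_mem _ hak t
          exact hle.trans (sup_le hBX (by rwa [Subgroup.zpowers_le]))
        rw [eq_top_iff]
        intro y _
        obtain ⟨z, hz, hzy⟩ := hUX y.2
        have : z = y := Subtype.ext hzy
        rwa [← this]))
    rw [h1]

end Cfsg.Agent.S3003
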