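import Cfsg.Statements.S3006
import Mathlib
import Cfsg.Agent.LibLE11CD2

set_option autoImplicit false
set_option linter.all false
open scoped Pointwise
open Cfsg

namespace Cfsg.Agent.S3006

theorem mem_zsup {P : Type*} [Group P] {Q B : Subgroup P} (hB : B ≤ Q) {x : P}
    (hx : x ∈ (Q ⊓ Subgroup.centralizer (Q : Set P)) ⊔ B) : ∃ z ∈ (Q ⊓ Subgroup.centralizer (Q : Set P)), ∃ b ∈ B, x = z * b := by
  have hn : B ≤ Subgroup.normalizer ((Q ⊓ Subgroup.centralizer (Q : Set P) : Subgroup P) : Set P) := by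
    intro b hb
    rw [Subgroup.mem_normalizer_iff]
    intro y
    have hb' := hB hb
    constructor
    · rintro ⟨h1, h2⟩
      have : b * y * b⁻¹ = y := by
        have := Subgroup.mem_centralizer_iff.mp h2 b hb'
        rw [this]; group
      rw [this]; exact ⟨h1, h2⟩
    · rintro ⟨h1, h2⟩
      have : b * y * b⁻¹ = y := by
        have h3 := Subgroup.mem_centralizer_iff.mp h2 b hb'
        have h4 : b * (b * y * b⁻¹) = b * y := by rw [h3]; group
        exact mul_left_cancel h4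
      rw [this] at h1 h2; exact ⟨h1, h2⟩
  have h6 := Subgroup.coe_mul_of_right_le_normalizer_left (Q ⊓ Subgroup.centralizer (Q : Set P)) B hn
  have h7 : x ∈ ((Q ⊓ Subgroup.centralizer (Q : Set P) : Subgroup P) : Set P) * (B : Set P) := by rw [← h6]; exact hx
  obtain ⟨z, hz, b, hb, rfl⟩ := h7
  exact ⟨z, hz, b, hb, rfl⟩

/-- Let P be a finite p-group, Q a centrally large subgroup of P (|Q|·|Z(Q)| maximal among subgroups of P) and A an abelian subgroup of P of largest order. Then QA = AQ is a centrally large subgroup of P, C_{QA}(Q ∩ A) = Z(Q)·A, and the subgroup generated by all centrally large subgroups of P contains C_P(Z(J(P))), where J(P) is generated by the abelian subgroups of largest order. -/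
theorem result {p : ℕ} [Fact p.Prime] (P : Type*) [Group P] [Finite P] (hP : IsPGroup p P) (Q A : Subgroup P) (hQ : Cfsg.IsCentrallyLarge Q) (hA : A ∈ Cfsg.maxAbelianSubgroups P) : ((Q ⊔ A : Subgroup P) : Set P) = (Q : Set P) * (A : Set P) ∧ Cfsg.IsCentrallyLarge (Q ⊔ A) ∧ (Q ⊔ A) ⊓ Subgroup.centralizer ((Q ⊓ A : Subgroup P) : Set P) = (Q ⊓ Subgroup.centralizer (Q : Set P)) ⊔ A ∧ (((Q ⊓ Subgroup.centralizer (Q : Set P)) ⊔ A : Subgroup P) : Set P) = ((Q ⊓ Subgroup.centralizer (Q : Set P)) : Set P) * (A : Set P) ∧ Subgroup.centralizer ((Cfsg.thompsonSubgroupA P ⊓ Subgroup.centralizer (Cfsg.thompsonSubgroupA P : Set P) : Subgroup P) : Set P) ≤ Cfsg.centrallyLargeJoin P := by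
  obtain ⟨h1, h2, h3⟩ := CfsgLib.LE11CD2.cl_mul_maxAbelian hQ hA
  have hAc := CfsgLib.LE11CD2.maxAbelian_centralizer hA
  have hBc := CfsgLib.LE11CD2.maxAbelian_centralizer h3
  have key : ∀ x ∈ (Q ⊔ A) ⊓ Subgroup.centralizer ((Q ⊓ A : Subgroup P) : Set P), ∃ z ∈ (Q ⊓ Subgroup.centralizer (Q : Set P)), ∃ a ∈ A, x = z * a := by
    rintro x ⟨hx1, hx2⟩
    have hx3 : x ∈ (Q : Set P) * (A : Set P) := by rw [← h1]; exact hx1
    obtain ⟨q, hq, a, ha, rfl⟩ := hx3
    have hq2 : q ∈ Subgroup.centralizer (((Q ⊓ Subgroup.centralizer (Q : Set P)) ⊔ (Q ⊓ A) : Subgroup P) : Set P) := by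
      rw [CfsgLib.LE11CD.centralizer_sup]
      constructor
      · show q ∈ Subgroup.centralizer ((Q ⊓ Subgroup.centralizer (Q : Set P) : Subgroup P) : Set P)
        rw [Subgroup.mem_centralizer_iff]
        rintro z ⟨hz1, hz2⟩
        exact (Subgroup.mem_centralizer_iff.mp hz2 q hq).symm
      · show q ∈ Subgroup.centralizer ((Q ⊓ A : Subgroup P) : Set P)
        have ha' : a ∈ Subgroup.centralizer ((Q ⊓ A : Subgroup P) : Set P) := by
          rw [← hAc] at ha
          exact Subgroup.centralizer_le (SetLike.coe_subset_coe.mpr inf_le_right) ha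
        have := Subgroup.mul_mem _ hx2 (Subgroup.inv_mem _ ha')
        simpa using this
    rw [hBc] at hq2
    obtain ⟨z, hz, b, hb, rfl⟩ := mem_zsup inf_le_left hq2
    exact ⟨z, hz, b * a, A.mul_mem hb.2 ha, by group⟩
  have hle : (Q ⊓ Subgroup.centralizer (Q : Set P)) ⊔ A ≤ (Q ⊔ A) ⊓ Subgroup.centralizer ((Q ⊓ A : Subgroup P) : Set P) := by
    apply sup_le
    · apply le_inf
      · exact inf_le_left.trans le_sup_left
      · exact inf_le_right.trans (Subgroup.centralizer_le (SetLike.coe_subset_coe.mpr inf_le_left))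
    · apply le_inf
      · exact le_sup_right
      · intro a ha
        have ha' := ha
        rw [← hAc] at ha'
        exact Subgroup.centralizer_le (SetLike.coe_subset_coe.mpr inf_le_right) ha'
  refine ⟨h1, h2, ?_, ?_, ?_⟩
  · apply le_antisymm
    · intro x hx
      obtain ⟨z, hz, a, ha, rfl⟩ := key x hx
      exact Subgroup.mul_mem _ ((le_sup_left : _ ≤ (Q ⊓ Subgroup.centralizer (Q : Set P)) ⊔ A) hz) ((le_sup_right : _ ≤ (Q ⊓ Subgroup.centralizer (Q : Set P)) ⊔ A) ha)
    · exact hle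
  · apply Set.Subset.antisymm
    · intro x hx
      obtain ⟨z, hz, a, ha, rfl⟩ := key x (hle hx)
      exact ⟨z, hz, a, ha, rfl⟩
    · rintro _ ⟨z, hz, a, ha, rfl⟩
      exact Subgroup.mul_mem _ ((le_sup_left : _ ≤ (Q ⊓ Subgroup.centralizer (Q : Set P)) ⊔ A) hz) ((le_sup_right : _ ≤ (Q ⊓ Subgroup.centralizer (Q : Set P)) ⊔ A) ha)
  · have hJ : Cfsg.IsCentrallyLarge (Cfsg.centrallyLargeJoin P) :=
      CfsgLib.LE11CD2.cl_sSup _ ⟨Q, hQ⟩ (fun _ h => h)
    have h4 := CfsgLib.LE11CD2.centralizer_centerJ_le hJ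
    refine h4.trans (sup_le le_rfl ?_)
    apply sSup_le
    intro A' hA'
    exact (le_sup_right : A' ≤ Q ⊔ A').trans (le_sSup (CfsgLib.LE11CD2.cl_mul_maxAbelian hQ hA').2.1)

end Cfsg.Agent.S3006
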