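import Cfsg.Statements.S3008
import Mathlib
import Cfsg.Agent.LibLE11CD3
import Cfsg.Agent.S3006

set_option autoImplicit false
set_option linter.all false
open Cfsg

namespace Cfsg.Agent.S3008

open Subgroup CfsgLib.LE11CD CfsgLib.LE11CD2 CfsgLib.LE11CD3
open scoped Pointwise

/-- Let P be a finite p-group, with J(P) generated by its abelian subgroups of largest order and J̃(P) = C_P(Z(J(P))); call R ≤ P centrally large if |R|·|Z(R)| is as large as possible, and let P_MCL be generated by the minimal centrally large subgroups. Then: for every centrally large Q, Q·J(P) ⊇ J̃(P); some minimal centrally large subgroup of P is normalized by both J(P) and P_MCL; if P = J(P) and d(P)² = |P|·|Z(P)|, where d(P) is the largest order of an abelian subgroup, then every minimal centrally large subgroup of P is abelian; and if every minimal centrally large subgroup is abelian then J̃(P) = J(P). -/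
theorem result {p : ℕ} [Fact p.Prime] (P : Type*) [Group P] [Finite P] (hP : IsPGroup p P) : (∀ Q : Subgroup P, Cfsg.IsCentrallyLarge Q → Subgroup.centralizer ((Cfsg.thompsonSubgroupA P ⊓ Subgroup.centralizer (Cfsg.thompsonSubgroupA P : Set P) : Subgroup P) : Set P) ≤ Q ⊔ Cfsg.thompsonSubgroupA P) ∧ (∃ Q : Subgroup P, Cfsg.IsMinimalCentrallyLarge Q ∧ Cfsg.thompsonSubgroupA P ≤ Subgroup.normalizer (Q : Set P) ∧ Cfsg.minimalCentrallyLargeJoin P ≤ Subgroup.normalizer (Q : Set P)) ∧ (Cfsg.thompsonSubgroupA P = ⊤ → (∀ A ∈ Cfsg.maxAbelianSubgroups P, Nat.card ↥A ^ 2 = Nat.card P * Nat.card ↥(Subgroup.center P)) → ∀ Q : Subgroup P, Cfsg.IsMinimalCentrallyLarge Q → IsMulCommutative ↥Q) ∧ ((∀ Q : Subgroup P, Cfsg.IsMinimalCentrallyLarge Q → IsMulCommutative ↥Q) → Subgroup.centralizer ((Cfsg.thompsonSubgroupA P ⊓ Subgroup.centralizer (Cfsg.thompsonSubgroupA P : Set P) : Subgroup P) : Set P) = Cfsg.thompsonSubgroupA P) := by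
  haveI : Group.IsNilpotent P := hP.isNilpotent
  refine ⟨fun Q hQ => centralizer_centerJ_le hQ, ?_, ?_, ?_⟩
  · have hmaxconj : ∀ A ∈ Cfsg.maxAbelianSubgroups P, ∀ g : P, MulAut.conj g • A ∈ Cfsg.maxAbelianSubgroups P := by
      rintro A ⟨h1, h2⟩ g
      refine ⟨?_, fun B hB => ?_⟩
      · rw [comm_iff_le_centralizer, centralizer_smul]
        exact Subgroup.pointwise_smul_le_pointwise_smul_iff.mpr (comm_iff_le_centralizer.mp h1)
      · rw [card_smul]; exact h2 B hB
    obtain ⟨Q, hQ, hQn⟩ := exists_normalized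
      {A : Subgroup P | A ∈ Cfsg.maxAbelianSubgroups P ∨ ∃ R : Subgroup P, Cfsg.IsMinimalCentrallyLarge R ∧ A = Subgroup.centralizer (R : Set P)}
      (by
        rintro A (hA | ⟨R, hR, rfl⟩)
        · exact comm_iff_le_centralizer.mp hA.1
        · obtain ⟨h1, h2⟩ := cl_iff.mp hR.1
          rw [(ml_cent h1).2]; exact h2)
      (by
        rintro A (hA | ⟨R, hR, rfl⟩) g
        · exact Or.inl (hmaxconj A hA g)
        · exact Or.inr ⟨_, mcl_smul (g := g) hR, (centralizer_smul g R).symm⟩)
      (by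
        rintro A (hA | ⟨R, hR, rfl⟩) Q hQ
        · have h := (Cfsg.Agent.S3006.result P hP Q A hQ.1 hA).2.2.2.1
          rw [inf_eq_right.mpr (cl_iff.mp hQ.1).2] at h
          rw [h]
          have e : (Q : Set P) ⊓ (Subgroup.centralizer (Q : Set P) : Set P) = (Subgroup.centralizer (Q : Set P) : Set P) := Set.inter_eq_right.mpr (cl_iff.mp hQ.1).2
          rw [e]
        · exact (ml_sup (cl_iff.mp hQ.1).1 (cl_iff.mp hR.1).1).2.2.2.1)
    refine ⟨Q, hQ, ?_, ?_⟩
    · apply sSup_le
      intro A hA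
      exact hQn A (Or.inl hA)
    · apply sSup_le
      intro R hR
      have hR' : Cfsg.IsMinimalCentrallyLarge R := hR
      have h1 := Cfsg.Agent.S3007.inter_sup hR' hQ
      rw [← h1]
      apply sup_le
      · exact (inf_le_right : R ⊓ Q ≤ Q).trans Subgroup.le_normalizer
      · exact hQn _ (Or.inr ⟨R, hR', rfl⟩)
  · intro hJ hd Q hQ
    obtain ⟨A, hA⟩ := exists_maxAbelian (G := P)
    have h1 : Cfsg.IsCentrallyLarge (⊤ : Subgroup P) := by
      have := cl_sup_thompson hQ.1
      rwa [hJ, sup_top_eq] at this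
    have hM : Nat.card P * Nat.card (Subgroup.center P) = Cfsg.maxCentralizerProduct P := by
      have h2 := (cl_iff.mp h1).1
      unfold Cfsg.IsCentralizerLarge at h2
      rw [← h2]
      congr 1
      · exact (Nat.card_congr Subgroup.topEquiv.toEquiv).symm
      · rw [Subgroup.coe_top, Subgroup.centralizer_univ]
    have hAc := maxAbelian_centralizer hA
    have hAml : Cfsg.IsCentralizerLarge A := by
      unfold Cfsg.IsCentralizerLarge
      rw [hAc, ← hM, ← hd A hA, sq]
    have hAcl : Cfsg.IsCentrallyLarge A := cl_iff.mpr ⟨hAml, hAc.le⟩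
    obtain ⟨S, hS, hSA⟩ := exists_min_cl_le hAcl
    have hSab : IsMulCommutative ↥S := by
      rw [comm_iff_le_centralizer]
      exact (hSA.trans (comm_iff_le_centralizer.mp hA.1)).trans (Subgroup.centralizer_le (SetLike.coe_subset_coe.mpr hSA))
    have h3 := (Cfsg.Agent.S3007.result P hP S Q hS hQ).2.1
    rw [Cfsg.Agent.S3007.comm_iff_commutator] at hSab ⊢
    rw [← h3]; exact hSab
  · intro hall
    obtain ⟨Q, hQ⟩ := exists_min_cl (G := P)
    have h1 := (Cfsg.Agent.S3007.result P hP Q Q hQ hQ).2.2.2.2 (hall Q hQ) Q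
    have h2 := h1.mp hQ
    apply le_antisymm
    · have h3 := centralizer_centerJ_le hQ.1
      have h4 : Q ⊔ Cfsg.thompsonSubgroupA P = Cfsg.thompsonSubgroupA P := sup_eq_right.mpr (le_sSup h2)
      rwa [h4] at h3
    · exact Cfsg.Agent.S3007.le_cent_symm inf_le_right

end Cfsg.Agent.S3008
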