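import Cfsg.Statements.S3012
import Mathlib

set_option autoImplicit false
set_option linter.all false
open Cfsg

namespace Cfsg.Agent.S3012

/-- Let G be a finite group, V a nontrivial elementary abelian 2-subgroup of G satisfying the Sidki pair condition (every odd-order element inverted by an element of V commutes with a nontrivial element of V), and K a normal subgroup of G with V ∩ K = 1. Then the image of V in G/K satisfies the Sidki pair condition in G/K. -/
theorem result {G : Type*} [Group G] [Finite G] (V K : Subgroup G) [K.Normal] (hV : Cfsg.IsElementaryAbelian 2 V) (hV1 : V ≠ ⊥) (hS : Cfsg.IsSidkiPair V) (hVK : V ⊓ K = ⊥) : Cfsg.IsSidkiPair (V.map (QuotientGroup.mk' K)) := by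
  intro h' v' hv' hodd hinv
  obtain ⟨v, hv, rfl⟩ := hv'
  have himg : ∀ w ∈ V, w ≠ 1 → (QuotientGroup.mk' K) w ≠ 1 := by
    intro w hw hw1 h
    have h1 : w ∈ K := (QuotientGroup.eq_one_iff w).mp h
    have h2 : w ∈ V ⊓ K := ⟨hw, h1⟩
    rw [hVK, Subgroup.mem_bot] at h2
    exact hw1 h2
  -- square root of h'
  obtain ⟨n, hn⟩ := hodd
  set y' := h' ^ (n + 1) with hy'
  have hyy : y' * y' = h' := by
    rw [hy', ← pow_add]
    have e : n + 1 + (n + 1) = orderOf h' + 1 := by omega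
    rw [e, pow_succ, pow_orderOf_eq_one, one_mul]
  have hvy : (QuotientGroup.mk' K) v * y' * ((QuotientGroup.mk' K) v)⁻¹ = y'⁻¹ := by
    rw [hy', ← conj_pow, hinv, inv_pow]
  obtain ⟨y, hy⟩ := QuotientGroup.mk'_surjective K y'
  have hv2 : v * v = 1 := by have := hV.2 v hv; rwa [pow_two] at this
  have hvi : v⁻¹ = v := inv_eq_of_mul_eq_one_left hv2
  set d := y * v * y⁻¹ * v with hd
  have hdimg : (QuotientGroup.mk' K) d = h' := by
    have e1 : (QuotientGroup.mk' K) d = y' * ((QuotientGroup.mk' K) v * y'⁻¹ * ((QuotientGroup.mk' K) v)⁻¹) := by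
      rw [hd, ← hy, ← map_inv, ← map_inv, hvi]; simp only [map_mul, mul_assoc]
    have e2 : (QuotientGroup.mk' K) v * y'⁻¹ * ((QuotientGroup.mk' K) v)⁻¹ = y' := by
      rw [← conj_inv, hvy, inv_inv]
    rw [e1, e2, hyy]
  have hdinv : v * d * v⁻¹ = d⁻¹ := by
    rw [hd, hvi]
    have e : (y * v * y⁻¹ * v)⁻¹ = v⁻¹ * y * v⁻¹ * y⁻¹ := by group
    rw [e, hvi]
    calc v * (y * v * y⁻¹ * v) * v = v * y * v * y⁻¹ * (v * v) := by group
      _ = _ := by rw [hv2, mul_one]
  -- odd part of d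
  obtain ⟨a, m, hm2, ham⟩ := Nat.exists_eq_pow_mul_and_not_dvd (orderOf_pos d).ne' 2 (by norm_num)
  have hcop : Nat.Coprime (2 ^ a) m := Nat.Coprime.pow_left a ((Nat.Prime.coprime_iff_not_dvd Nat.prime_two).mpr hm2)
  obtain ⟨j, hj1, hj2⟩ := Nat.chineseRemainder hcop 0 1
  have hdj : (2 ^ a) ∣ j := (Nat.modEq_zero_iff_dvd).mp hj1
  have hmpos : 0 < m := Nat.pos_of_ne_zero (fun h => hm2 (h ▸ dvd_zero 2))
  have hodd' : Odd (orderOf (d ^ j)) := by
    have h1 : orderOf (d ^ j) ∣ m := by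
      apply orderOf_dvd_of_pow_eq_one
      rw [← pow_mul]
      obtain ⟨c, rfl⟩ := hdj
      have : 2 ^ a * c * m = orderOf d * c := by rw [ham]; ring
      rw [this, pow_mul, pow_orderOf_eq_one, one_pow]
    exact Odd.of_dvd_nat (Nat.odd_iff.mpr (Nat.two_dvd_ne_zero.mp hm2)) h1
  have hinv' : v * d ^ j * v⁻¹ = (d ^ j)⁻¹ := by
    rw [← conj_pow, hdinv, inv_pow]
  obtain ⟨w, hw, hw1, hwc⟩ := hS (d ^ j) v hv hodd' hinv'
  refine ⟨(QuotientGroup.mk' K) w, ⟨w, hw, rfl⟩, himg w hw hw1, ?_⟩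
  have hh : (QuotientGroup.mk' K) (d ^ j) = h' := by
    rw [map_pow, hdimg]
    have h1 : orderOf h' ∣ m := by
      have h2 : orderOf h' ∣ 2 ^ a * m := by
        rw [← ham, ← hdimg]
        exact orderOf_map_dvd _ d
      have h3 : Nat.Coprime (orderOf h') (2 ^ a) := by
        apply Nat.Coprime.pow_right
        rw [hn]
        exact Nat.coprime_two_right.mpr ⟨n, rfl⟩
      exact h3.dvd_of_dvd_mul_left h2
    have h4 : j ≡ 1 [MOD orderOf h'] := Nat.ModEq.of_dvd h1 hj2
    have := pow_eq_pow_iff_modEq.mpr h4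
    rw [this, pow_one]
  rw [← hh, ← map_mul, ← map_mul, hwc]

end Cfsg.Agent.S3012
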