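import Cfsg.Statements.S3013
import Mathlib

set_option autoImplicit false
set_option linter.all false
open Cfsg

namespace Cfsg.Agent.S3013

theorem comm_of_sq {G : Type*} [Group G] [Finite G] {w h : G} (hodd : Odd (orderOf h)) (hc : w * (h * h) = h * h * w) : w * h = h * w := by
  obtain ⟨n, hn⟩ := hodd
  have h1 : Commute w (h * h) := hc
  have h2 : Commute w ((h * h) ^ (n + 1)) := h1.pow_right _
  have h3 : (h * h) ^ (n + 1) = h := by
    rw [← pow_two, ← pow_mul]
    have e : 2 * (n + 1) = orderOf h + 1 := by omega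
    rw [e, pow_succ, pow_orderOf_eq_one, one_mul]
  rw [h3] at h2
  exact h2

/-- Let G be a finite group and V a nontrivial elementary abelian 2-subgroup of G satisfying the Sidki pair condition. Let v ∈ V and let x be an element of odd order inverted by v, and put C = C_G(v) ∩ C_G(x), the centralizer of the dihedral subgroup generated by v and x. Then C ∩ V is nontrivial and satisfies the Sidki pair condition inside C: every odd-order element of C inverted by an element of C ∩ V commutes with a nontrivial element of C ∩ V. -/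
theorem result {G : Type*} [Group G] [Finite G] (V : Subgroup G) (hV : Cfsg.IsElementaryAbelian 2 V) (hV1 : V ≠ ⊥) (hS : Cfsg.IsSidkiPair V) (v x : G) (hv : v ∈ V) (hx : Odd (orderOf x)) (hinv : v * x * v⁻¹ = x⁻¹) (C : Subgroup G) (hC : C = Subgroup.centralizer ({v} : Set G) ⊓ Subgroup.centralizer ({x} : Set G)) : C ⊓ V ≠ ⊥ ∧ Cfsg.IsSidkiPair ((C ⊓ V).subgroupOf C) := by
  subst hC
  obtain ⟨hVab, hV2⟩ := hV
  have hVc : ∀ a ∈ V, ∀ b ∈ V, a * b = b * a := fun a ha b hb => congrArg Subtype.val (hVab.is_comm.comm (⟨a, ha⟩ : V) ⟨b, hb⟩)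
  constructor
  · obtain ⟨w, hw, hw1, hwc⟩ := hS x v hv hx hinv
    intro h
    apply hw1
    have : w ∈ (Subgroup.centralizer ({v} : Set G) ⊓ Subgroup.centralizer ({x} : Set G)) ⊓ V := by
      refine ⟨⟨?_, ?_⟩, hw⟩
      · show w ∈ Subgroup.centralizer ({v} : Set G)
        rw [Subgroup.mem_centralizer_singleton_iff]; exact hVc w hw v hv
      · show w ∈ Subgroup.centralizer ({x} : Set G)
        rw [Subgroup.mem_centralizer_singleton_iff]; exact hwc
    rw [h, Subgroup.mem_bot] at this
    exact this
  · intro h v' hv' hodd hinv'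
    have hhC := h.2
    have hv'C := v'.2
    rw [Subgroup.mem_subgroupOf] at hv'
    have hv'V : (v' : G) ∈ V := hv'.2
    have hhv : (h : G) * v = v * h := Subgroup.mem_centralizer_singleton_iff.mp hhC.1
    have hhx : (h : G) * x = x * h := Subgroup.mem_centralizer_singleton_iff.mp hhC.2
    have hv'x : (v' : G) * x = x * v' := Subgroup.mem_centralizer_singleton_iff.mp hv'C.2
    have hinv'' : (v' : G) * h * (v' : G)⁻¹ = (h : G)⁻¹ := congrArg Subtype.val hinv'
    have hoddh : Odd (orderOf (h : G)) := by rwa [Subgroup.orderOf_coe]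
    have hcxh : Commute x (h : G) := hhx.symm
    have hoddxh : Odd (orderOf (x * (h : G))) := by
      have h1 := hcxh.orderOf_mul_dvd_mul_orderOf
      exact Odd.of_dvd_nat (hx.mul hoddh) h1
    have hinvxh : (v * v') * (x * h) * (v * v')⁻¹ = (x * (h : G))⁻¹ := by
      have e1 : (v * v') * (x * h) * (v * v')⁻¹ = v * ((v' * x * (v' : G)⁻¹) * (v' * h * (v' : G)⁻¹)) * v⁻¹ := by group
      have e2 : (v' : G) * x * (v' : G)⁻¹ = x := by rw [hv'x]; group
      have e3 : v * (h : G)⁻¹ * v⁻¹ = (h : G)⁻¹ := by
        have h1 : Commute (h : G) v := hhv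
        have h2 : Commute (h : G)⁻¹ v := h1.inv_left
        rw [← h2.eq]; group
      have e4 : v * (x * (h : G)⁻¹) * v⁻¹ = (v * x * v⁻¹) * (v * (h : G)⁻¹ * v⁻¹) := by group
      rw [e1, e2, hinv'', e4, e3, hinv, mul_inv_rev]
      exact (hcxh.inv_inv).eq
    obtain ⟨w, hw, hw1, hwc⟩ := hS (x * h) (v * v') (V.mul_mem hv hv'V) hoddxh hinvxh
    have hwv : w * v = v * w := hVc w hw v hv
    -- w commutes with x⁻¹ h
    have hwc2 : w * (x⁻¹ * h) = (x⁻¹ * h) * w := by
      have e1 : v * (x * (h : G)) * v⁻¹ = x⁻¹ * h := by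
        have : v * (x * (h : G)) * v⁻¹ = (v * x * v⁻¹) * (v * h * v⁻¹) := by group
        rw [this, hinv]
        congr 1
        rw [← hhv]; group
      have e2 : v * w * v⁻¹ = w := by rw [← hwv]; group
      calc w * (x⁻¹ * h) = (v * w * v⁻¹) * (v * (x * (h : G)) * v⁻¹) := by rw [e1, e2]
        _ = v * (w * (x * h)) * v⁻¹ := by group
        _ = v * ((x * h) * w) * v⁻¹ := by rw [hwc]
        _ = (v * (x * (h : G)) * v⁻¹) * (v * w * v⁻¹) := by group
        _ = _ := by rw [e1, e2]
    have hwh2 : w * ((h : G) * h) = (h : G) * h * w := by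
      have e : (x * (h : G)) * (x⁻¹ * h) = h * h := by
        rw [← hhx]
        group
      have h1 : Commute w (x * h) := hwc
      have h2 : Commute w (x⁻¹ * h) := hwc2
      have h3 := h1.mul_right h2
      rw [e] at h3
      exact h3
    have hwh : w * (h : G) = h * w := comm_of_sq hoddh hwh2
    have hwx : w * x = x * w := by
      have h1 : Commute w (x * h) := hwc
      have h2 : Commute w (h : G) := hwh
      have h3 := h1.mul_right h2.inv_right
      have e : x * (h : G) * (h : G)⁻¹ = x := by group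
      rw [e] at h3
      exact h3
    have hwC : w ∈ Subgroup.centralizer ({v} : Set G) ⊓ Subgroup.centralizer ({x} : Set G) := by
      refine ⟨?_, ?_⟩
      · show w ∈ Subgroup.centralizer ({v} : Set G)
        rw [Subgroup.mem_centralizer_singleton_iff]; exact hwv
      · show w ∈ Subgroup.centralizer ({x} : Set G)
        rw [Subgroup.mem_centralizer_singleton_iff]; exact hwx
    refine ⟨⟨w, hwC⟩, ?_, ?_, ?_⟩
    · rw [Subgroup.mem_subgroupOf]; exact ⟨hwC, hw⟩
    · intro h; apply hw1; exact congrArg Subtype.val h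
    · apply Subtype.ext; exact hwh

end Cfsg.Agent.S3013
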