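import Cfsg.Statements.S3017
import Mathlib
import Cfsg.Agent.LibEC11g

set_option autoImplicit false
set_option linter.all false
open Cfsg

namespace Cfsg.Agent.S3017

open Subgroup Cfsg

/-- Let G be a finite group and H an abelian 2-subgroup of G that is extremely closed (for every g, the subgroup generated by H and g H g⁻¹ meets N_G(H) exactly in H). Then G = N_G(H) O(G), where O(G) is the largest normal subgroup of odd order. For H of order 2 this is Glauberman's Z*-statement. -/
theorem result {G : Type*} [Group G] [Finite G] (H : Subgroup G) (hH2 : IsPGroup 2 H) (hHab : IsMulCommutative H) (hcl : Cfsg.IsExtremelyClosed H) : Subgroup.normalizer (H : Set G) ⊔ Cfsg.oddCore G = ⊤ := by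
  haveI : Fact (Nat.Prime 2) := ⟨Nat.prime_two⟩
  exact CfsgLib.EC11.norm_sup_core (p := 2) ⟨hH2, fun a ha b hb => congrArg Subtype.val (hHab.is_comm.comm (⟨a, ha⟩ : H) ⟨b, hb⟩), hcl⟩

end Cfsg.Agent.S3017
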