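import Cfsg.Statements.S3020
import Mathlib
import Cfsg.Agent.LibLE11Syl
import Cfsg.Agent.LibCores

set_option autoImplicit false
set_option linter.all false
open Cfsg

namespace Cfsg.Agent.S3020

open CfsgLib.LE11Syl
open scoped Pointwise

/-- Let G be a finite group, p a prime and H an abelian p-subgroup of G that is extremely closed (for every g, the subgroup generated by H and g H g⁻¹ meets N_G(H) exactly in H). Then for every g ∈ G, the subgroup T generated by H and g H g⁻¹ is the product of H with O_{p'}(T), and H meets O_{p'}(T) trivially; that is, O_{p'}(T) is a normal p-complement of H in T. -/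
theorem result {G : Type*} [Group G] [Finite G] {p : ℕ} [Fact p.Prime] (H : Subgroup G) (hHp : IsPGroup p H) (hHab : IsMulCommutative H) (hcl : Cfsg.IsExtremelyClosed H) (g : G) (T : Subgroup G) (hT : T = H ⊔ H.map (MulAut.conj g).toMonoidHom) : H ⊔ (Cfsg.pPrimeCore p ↥T).map T.subtype = T ∧ H ⊓ (Cfsg.pPrimeCore p ↥T).map T.subtype = ⊥ := by
  have hHT : H ≤ T := by rw [hT]; exact le_sup_left
  have hcl' : T ⊓ Subgroup.normalizer (H : Set G) = H := by rw [hT]; exact hcl g
  -- H is a Sylow p-subgroup of T
  have hSyl : IsSyl p H T := by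
    have h0 : IsSyl p H H := by
      refine ⟨le_rfl, hHp, ?_⟩
      rw [Subgroup.relIndex_self]
      exact fun h => (Fact.out : p.Prime).one_lt.ne' (Nat.dvd_one.mp h)
    exact h0.of_normalizer_le hHT hcl'.le
  obtain ⟨P, hP⟩ := hSyl.exists_sylow
  have hHab' : ∀ a ∈ H, ∀ b ∈ H, a * b = b * a := fun a ha b hb => congrArg Subtype.val (hHab.is_comm.comm (⟨a, ha⟩ : H) ⟨b, hb⟩)
  have hmemP : ∀ x : T, x ∈ (P : Subgroup T) ↔ (x : G) ∈ H := by
    intro x
    rw [← hP]
    constructor
    · intro h; exact ⟨x, h, rfl⟩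
    · rintro ⟨y, hy, hyx⟩
      have : y = x := Subtype.ext hyx
      rwa [← this]
  have hn : Subgroup.normalizer ((P : Subgroup T) : Set T) ≤ Subgroup.centralizer ((P : Subgroup T) : Set T) := by
    intro n hn
    have h1 : (n : G) ∈ Subgroup.normalizer (H : Set G) := by
      rw [Subgroup.mem_normalizer_iff] at hn ⊢
      intro z
      constructor
      · intro hz
        have := (hn ⟨z, hHT hz⟩).mp ((hmemP _).mpr hz)
        exact (hmemP _).mp this
      · intro hz
        have hzT : z ∈ T := by
          have := T.mul_mem (T.mul_mem (T.inv_mem n.2) (hHT hz)) n.2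
          have e : (n : G)⁻¹ * ((n : G) * z * (n : G)⁻¹) * n = z := by group
          rwa [e] at this
        have := (hn ⟨z, hzT⟩).mpr ((hmemP _).mpr hz)
        exact (hmemP _).mp this
    have h2 : (n : G) ∈ H := by rw [← hcl']; exact ⟨n.2, h1⟩
    rw [Subgroup.mem_centralizer_iff]
    intro y hy
    apply Subtype.ext
    exact hHab' y ((hmemP y).mp hy) n h2
  set K := (MonoidHom.transferSylow P hn).ker with hK
  have hcompl := MonoidHom.ker_transferSylow_isComplement' P hn
  have hKp : K ≤ Cfsg.pPrimeCore p ↥T := by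
    apply CfsgLib.Cores.le_pPrimeCore inferInstance
    have := MonoidHom.not_dvd_card_ker_transferSylow P hn
    exact ((Nat.Prime.coprime_iff_not_dvd (Fact.out : p.Prime)).mpr this).symm
  constructor
  · apply le_antisymm
    · exact sup_le hHT (Subgroup.map_subtype_le _)
    · intro t ht
      have h1 : (⟨t, ht⟩ : T) ∈ K ⊔ (P : Subgroup T) := by rw [hcompl.sup_eq_top]; trivial
      have h2 : (K ⊔ (P : Subgroup T)).map T.subtype ≤ H ⊔ (Cfsg.pPrimeCore p ↥T).map T.subtype := by
        rw [Subgroup.map_sup]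
        apply sup_le
        · exact (Subgroup.map_mono hKp).trans le_sup_right
        · rw [hP]; exact le_sup_left
      exact h2 ⟨_, h1, rfl⟩
  · have hc := CfsgLib.Cores.pPrimeCore_coprime (G := T) p
    rw [← Subgroup.card_eq_one]
    have h1 : Nat.card (H ⊓ (Cfsg.pPrimeCore p ↥T).map T.subtype : Subgroup G) ∣ Nat.card H := Subgroup.card_dvd_of_le inf_le_left
    have h2 : Nat.card (H ⊓ (Cfsg.pPrimeCore p ↥T).map T.subtype : Subgroup G) ∣ Nat.card (Cfsg.pPrimeCore p ↥T) := by
      rw [← Subgroup.card_map_of_injective T.subtype_injective]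
      exact Subgroup.card_dvd_of_le inf_le_right
    obtain ⟨k, hk⟩ := IsPGroup.iff_card.mp hHp
    have h3 : Nat.Coprime (Nat.card (Cfsg.pPrimeCore p ↥T)) (Nat.card H) := by rw [hk]; exact Nat.Coprime.pow_right k hc
    exact Nat.eq_one_of_dvd_coprimes h3 h2 h1

end Cfsg.Agent.S3020
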