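import Cfsg.Statements.S3021
import Mathlib
import Cfsg.Agent.LibLE11Syl

set_option autoImplicit false
set_option linter.all false
open Cfsg

namespace Cfsg.Agent.S3021

open CfsgLib.LE11Syl

theorem ext_closed_le {G : Type*} [Group G] [Finite G] {H : Subgroup G} (hcl : Cfsg.IsExtremelyClosed H) {g : G}
    (h : H.map (MulAut.conj g).toMonoidHom ≤ Subgroup.normalizer (H : Set G)) : g ∈ Subgroup.normalizer (H : Set G) := by
  have h1 := hcl g
  have h2 : H ⊔ H.map (MulAut.conj g).toMonoidHom ≤ H := by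
    calc H ⊔ H.map (MulAut.conj g).toMonoidHom ≤ (H ⊔ H.map (MulAut.conj g).toMonoidHom) ⊓ Subgroup.normalizer (H : Set G) :=
          le_inf le_rfl (sup_le Subgroup.le_normalizer h)
      _ = H := h1
  have h3 : H.map (MulAut.conj g).toMonoidHom ≤ H := le_sup_right.trans h2
  have h4 : H.map (MulAut.conj g).toMonoidHom = H := Subgroup.eq_of_le_of_card_ge h3 (by
    rw [Subgroup.card_map_of_injective (MulAut.conj g).injective])
  rw [Subgroup.mem_normalizer_iff]
  intro x
  constructor
  · intro hx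
    rw [← h4]; exact ⟨x, hx, rfl⟩
  · intro hx
    rw [← h4] at hx
    obtain ⟨y, hy, hyx⟩ := hx
    have : y = x := (MulAut.conj g).injective hyx
    rwa [← this]

theorem map_conj_le_of_mem {G : Type*} [Group G] {H K : Subgroup G} {g : G} (hHK : H ≤ K) (hg : g ∈ Subgroup.normalizer (K : Set G)) :
    H.map (MulAut.conj g).toMonoidHom ≤ K := by
  rintro _ ⟨y, hy, rfl⟩
  exact (Subgroup.mem_normalizer_iff.mp hg y).mp (hHK hy)

theorem le_norm {G : Type*} [Group G] [Finite G] {p : ℕ} [Fact p.Prime] {H : Subgroup G}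
    (hcl : Cfsg.IsExtremelyClosed H) (Q : Subgroup G) (hQ : IsPGroup p ↥Q) (hHQ : H ≤ Q) : Q ≤ Subgroup.normalizer (H : Set G) := by
  by_contra hcon
  have hlt : Q ⊓ Subgroup.normalizer (H : Set G) < Q := lt_of_le_of_ne inf_le_left (fun e => hcon (by rw [← e]; exact inf_le_right))
  obtain ⟨g, hgQ, hg1, hg2⟩ := exists_mem_normalizer hQ hlt
  apply hg1
  refine ⟨hgQ, ?_⟩
  apply ext_closed_le hcl
  exact (map_conj_le_of_mem (le_inf hHQ Subgroup.le_normalizer) hg2).trans inf_le_right

/-- Let G be a finite group, p a prime and H a p-subgroup of G that is extremely closed (for every g, the subgroup generated by H and g H g⁻¹ meets N_G(H) exactly in H). Then every p-subgroup Q of G containing H has N_G(Q) ≤ N_G(H); in particular every Sylow p-subgroup P of G containing H normalizes H, and H is strongly closed in P with respect to G. -/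
theorem result {G : Type*} [Group G] [Finite G] {p : ℕ} [Fact p.Prime] (H : Subgroup G) (hHp : IsPGroup p H) (hcl : Cfsg.IsExtremelyClosed H) : (∀ Q : Subgroup G, IsPGroup p Q → H ≤ Q → Subgroup.normalizer (Q : Set G) ≤ Subgroup.normalizer (H : Set G)) ∧ ∀ P : Sylow p G, H ≤ (P : Subgroup G) → (P : Subgroup G) ≤ Subgroup.normalizer (H : Set G) ∧ Cfsg.IsStronglyClosed H (P : Subgroup G) := by
  have hle := fun (Q : Subgroup G) (hQ : IsPGroup p ↥Q) (hHQ : H ≤ Q) => le_norm hcl Q hQ hHQ
  have h1 : ∀ Q : Subgroup G, IsPGroup p Q → H ≤ Q → Subgroup.normalizer (Q : Set G) ≤ Subgroup.normalizer (H : Set G) := by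
    intro Q hQ hHQ n hn
    apply ext_closed_le hcl
    exact (map_conj_le_of_mem hHQ hn).trans (hle Q hQ hHQ)
  refine ⟨h1, fun P hHP => ⟨hle _ P.isPGroup' hHP, hHP, fun x hx g hg => ?_⟩⟩
  have h2 : g * x * g⁻¹ ∈ (H ⊔ H.map (MulAut.conj g).toMonoidHom) ⊓ Subgroup.normalizer (H : Set G) := by
    refine ⟨Subgroup.mem_sup_right ⟨x, hx, rfl⟩, hle _ P.isPGroup' hHP hg⟩
  rwa [hcl g] at h2

end Cfsg.Agent.S3021
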