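import Cfsg.Statements.S3023
import Mathlib
import Cfsg.Agent.LibLE11Syl
import Cfsg.Agent.LibLE11Basic
import Cfsg.Agent.LibLE13
import Cfsg.Agent.LibSolvNilp

set_option autoImplicit false
set_option linter.all false
open Cfsg

namespace Cfsg.Agent.S3023

open CfsgLib.LE CfsgLib.LE11Basic
open CfsgLib.LE11Syl (conj_smul_eq_iff mem_conj_smul card_conj)
open scoped Pointwise

variable {G : Type*} [Group G] [Finite G] {p : ℕ} [Fact p.Prime]

theorem charPOf_map {K : Subgroup G} (H : Subgroup K) : CharPOf p (H.map K.subtype) ↔ CharPOf p H := by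
  rw [charPOf_iff_type, charPOf_iff_type]
  have e : H ≃* H.map K.subtype := H.equivMapOfInjective K.subtype K.subtype_injective
  exact ⟨charP_of_equiv e.symm, charP_of_equiv e⟩

theorem syl_inf_subnormal {S A : Subgroup G} (hS : CfsgLib.LE11Syl.IsSyl p S ⊤) (hA : A.IsSubnormal) : CfsgLib.LE11Syl.IsSyl p (S ⊓ A) A := by
  induction hA with
  | top => rwa [inf_top_eq]
  | step H K h_le hSubn hNn ih =>
    have h2 : K ≤ Subgroup.normalizer (H : Set G) := by
      intro k hk
      rw [Subgroup.mem_normalizer_iff]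
      intro z
      constructor
      · intro hz
        have := hNn.conj_mem ⟨z, h_le hz⟩ (Subgroup.mem_subgroupOf.mpr hz) ⟨k, hk⟩
        exact Subgroup.mem_subgroupOf.mp this
      · intro hz
        have := hNn.conj_mem ⟨k * z * k⁻¹, h_le hz⟩ (Subgroup.mem_subgroupOf.mpr hz) ⟨k⁻¹, K.inv_mem hk⟩
        have h4 := Subgroup.mem_subgroupOf.mp this
        have e : ((⟨k⁻¹, K.inv_mem hk⟩ * ⟨k * z * k⁻¹, h_le hz⟩ * (⟨k⁻¹, K.inv_mem hk⟩)⁻¹ : K) : G) = z := by
          show k⁻¹ * (k * z * k⁻¹) * k⁻¹⁻¹ = z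
          group
        rwa [e] at h4
    have h3 := ih.inf_of_normal h_le h2
    rwa [inf_assoc, inf_eq_right.mpr h_le] at h3

/-- main argument in ambient form -/
theorem main (hG : Cfsg.IsOfParabolicCharacteristic p G) (S : Sylow p G) (G₁ : Subgroup G) (hsn : G₁.IsSubnormal)
    (hle : ((S : Subgroup G) ⊓ G₁) ⊓ Subgroup.centralizer (((S : Subgroup G) ⊓ G₁ : Subgroup G) : Set G) ≤ (S : Subgroup G) ⊓ Subgroup.centralizer ((S : Subgroup G) : Set G))
    (R : Subgroup G) (hR : IsPGroup p ↥R) (hRne : R ≠ ⊥) (hRG : R ≤ G₁) (hSR : (S : Subgroup G) ⊓ G₁ ≤ Subgroup.normalizer (R : Set G)) :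
    CharPOf p (G₁ ⊓ Subgroup.normalizer (R : Set G)) := by
  set L := G₁ ⊓ Subgroup.normalizer (R : Set G) with hL
  set S1 := (S : Subgroup G) ⊓ G₁ with hS1
  have hS1syl : CfsgLib.LE11Syl.IsSyl p S1 G₁ := syl_inf_subnormal (CfsgLib.LE11Syl.isSyl_top S) hsn
  have hS1L : S1 ≤ L := le_inf inf_le_right hSR
  have hS1sylL : CfsgLib.LE11Syl.IsSyl p S1 L := hS1syl.mono hS1L inf_le_left
  have hRL : R ≤ L := le_inf hRG Subgroup.le_normalizer
  have hRS : R ≤ S1 := by
    obtain ⟨m, hm, hle⟩ := hS1sylL.conj_le hRL hR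
    have : MulAut.conj m • R = R := conj_smul_eq_iff.mpr hm.2
    rwa [this] at hle
  -- R meets the centre of S1
  set Z0 := R ⊓ Subgroup.centralizer (S1 : Set G) with hZ0
  have hZ0ne : Z0 ≠ ⊥ := by
    intro h
    have h1 : R.subgroupOf S1 ⊓ Subgroup.center S1 = ⊥ := by
      rw [eq_bot_iff]
      rintro ⟨x, hx⟩ ⟨hx1, hx2⟩
      have h2 : x ∈ Z0 := by
        refine ⟨Subgroup.mem_subgroupOf.mp hx1, ?_⟩
        show x ∈ Subgroup.centralizer (S1 : Set G)
        rw [Subgroup.mem_centralizer_iff]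
        intro y hy
        exact congrArg Subtype.val (Subgroup.mem_center_iff.mp hx2 ⟨y, hy⟩)
      rw [h, Subgroup.mem_bot] at h2
      rw [Subgroup.mem_bot]; exact Subtype.ext h2
    have hn : (R.subgroupOf S1).Normal := by
      refine ⟨fun x hx g => ?_⟩
      rw [Subgroup.mem_subgroupOf] at hx ⊢
      exact (Subgroup.mem_normalizer_iff.mp (hSR g.2) x).mp hx
    haveI : Group.IsNilpotent S1 := hS1syl.2.1.isNilpotent
    have h2 : R.subgroupOf S1 ≠ ⊥ := by
      intro h3
      apply hRne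
      rw [Subgroup.subgroupOf_eq_bot] at h3
      rw [eq_bot_iff]
      intro x hx
      exact h3.le_bot ⟨hx, hRS hx⟩
    exact CfsgLib.SolvNilp.inf_center_ne_bot _ h2 h1
  have hZ0S : Z0 ≤ (S : Subgroup G) ⊓ Subgroup.centralizer ((S : Subgroup G) : Set G) := by
    refine le_trans ?_ hle
    exact inf_le_inf_right _ hRS
  have hZ0p : IsPGroup p ↥Z0 := hR.to_le inf_le_left
  -- N_G(Z0) has characteristic p
  have hN : CharPOf p (Subgroup.normalizer (Z0 : Set G)) := by
    rw [charPOf_iff_type]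
    apply hG Z0 hZ0p hZ0ne
    refine ⟨S, ?_⟩
    have h1 : (S : Subgroup G) ≤ Subgroup.centralizer (Z0 : Set G) := by
      intro s hs
      rw [Subgroup.mem_centralizer_iff]
      intro z hz
      exact (Subgroup.mem_centralizer_iff.mp (hZ0S hz).2 s hs).symm
    exact h1.trans (Subgroup.centralizer_le_normalizer _)
  have hC : CharPOf p (Subgroup.centralizer (Z0 : Set G)) :=
    hN.normal (Subgroup.centralizer_le_normalizer _) (le_normalizer_centralizer le_rfl)
  -- T = G₁ ∩ C(Z0) is subnormal in C(Z0)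
  have hT : CharPOf p (Subgroup.centralizer (Z0 : Set G) ⊓ G₁) := by
    have h1 : (G₁.subgroupOf (Subgroup.centralizer (Z0 : Set G))).IsSubnormal := hsn.subgroupOf
    have h2 := charP_of_isSubnormal ((charPOf_iff_type _).mp hC) h1
    have h3 : CharPOf p (G₁.subgroupOf (Subgroup.centralizer (Z0 : Set G))) := h2
    rw [← charPOf_map] at h3
    have e : (G₁.subgroupOf (Subgroup.centralizer (Z0 : Set G))).map (Subgroup.centralizer (Z0 : Set G)).subtype = Subgroup.centralizer (Z0 : Set G) ⊓ G₁ := by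
      rw [Subgroup.subgroupOf_map_subtype, inf_comm]
    rwa [e] at h3
  have hZ0c : R ≤ Subgroup.centralizer (Z0 : Set G) := by
    intro r hr
    rw [Subgroup.mem_centralizer_iff]
    intro z hz
    exact (Subgroup.mem_centralizer_iff.mp hz.2 r (hRS hr)).symm
  have hK := hT.inf_normalizer (X := R) (le_inf hZ0c hRG) hR
  set K := Subgroup.centralizer (Z0 : Set G) ⊓ G₁ ⊓ Subgroup.normalizer (R : Set G) with hKdef
  -- C = C_L(O_p(L))
  set C := L ⊓ Subgroup.centralizer (pCoreOf p L : Set G) with hCdef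
  have hRO : R ≤ pCoreOf p L := le_pCoreOf hRL inf_le_right hR
  have hCK : C ≤ K := by
    intro x hx
    refine ⟨⟨?_, hx.1.1⟩, hx.1.2⟩
    exact Subgroup.centralizer_le (SetLike.coe_subset_coe.mpr ((inf_le_left : Z0 ≤ R).trans hRO)) hx.2
  have hLC : L ≤ Subgroup.normalizer (C : Set G) :=
    le_normalizer_inf Subgroup.le_normalizer (le_normalizer_centralizer (le_normalizer_pCoreOf p L))
  have hKL : K ≤ L := le_inf (inf_le_left.trans inf_le_right) inf_le_right
  have hCchar := hK.normal hCK (hKL.trans hLC)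
  have h1 : pCoreOf p C ≤ pCoreOf p L := pCoreOf_le_pCoreOf_of_normal inf_le_left hLC
  have h2 : C ≤ pCoreOf p C := by
    refine le_trans ?_ hCchar
    apply le_inf le_rfl
    exact (inf_le_right : C ≤ _).trans (Subgroup.centralizer_le (SetLike.coe_subset_coe.mpr h1))
  exact h2.trans h1

/-- Let p be a prime, G a finite group of parabolic characteristic p (every p-local subgroup containing a Sylow p-subgroup of G has characteristic p), S a Sylow p-subgroup of G and G₁ a subnormal subgroup of G. If the centre of S ∩ G₁ is nontrivial and contained in the centre of S, then G₁ has parabolic characteristic p. -/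
theorem result {G : Type*} [Group G] [Finite G] {p : ℕ} [Fact p.Prime] (hG : Cfsg.IsOfParabolicCharacteristic p G) (S : Sylow p G) (G₁ : Subgroup G) (hsn : G₁.IsSubnormal) (hne : ((S : Subgroup G) ⊓ G₁) ⊓ Subgroup.centralizer (((S : Subgroup G) ⊓ G₁ : Subgroup G) : Set G) ≠ ⊥) (hle : ((S : Subgroup G) ⊓ G₁) ⊓ Subgroup.centralizer (((S : Subgroup G) ⊓ G₁ : Subgroup G) : Set G) ≤ (S : Subgroup G) ⊓ Subgroup.centralizer ((S : Subgroup G) : Set G)) : Cfsg.IsOfParabolicCharacteristic p ↥G₁ := by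
  intro R hR hRne hpar
  rw [← charPOf_iff_type, ← charPOf_map]
  obtain ⟨T, hT⟩ := hpar
  -- ambient versions
  set R' := R.map G₁.subtype with hR'
  set T' := (T : Subgroup G₁).map G₁.subtype with hT'
  have hTsyl : CfsgLib.LE11Syl.IsSyl p T' G₁ := CfsgLib.LE11Syl.isSyl_map T
  have hSsyl := syl_inf_subnormal (CfsgLib.LE11Syl.isSyl_top S) hsn
  obtain ⟨m, hm, hmT⟩ := hTsyl.conj_eq hSsyl
  -- S conjugated by m
  have hnorm : (Subgroup.normalizer (R : Set G₁)).map G₁.subtype = G₁ ⊓ Subgroup.normalizer (R' : Set G) := by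
    ext x
    constructor
    · rintro ⟨y, hy, rfl⟩
      refine ⟨y.2, ?_⟩
      show (y : G) ∈ Subgroup.normalizer (R' : Set G)
      rw [Subgroup.mem_normalizer_iff]
      have hy' := Subgroup.mem_normalizer_iff.mp (show y ∈ Subgroup.normalizer (R : Set G₁) from hy)
      intro z
      constructor
      · rintro ⟨w, hw, rfl⟩
        exact ⟨y * w * y⁻¹, (hy' w).mp hw, rfl⟩
      · rintro ⟨w, hw, hwz⟩
        have h1 : (y⁻¹ * w * y : G₁) ∈ R := by
          rw [hy']
          have e : y * (y⁻¹ * w * y) * y⁻¹ = w := by group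
          rwa [e]
        refine ⟨_, h1, ?_⟩
        have hwz' : (w : G) = y * z * (y : G)⁻¹ := hwz
        show (y : G)⁻¹ * w * y = z
        rw [hwz']; group
    · rintro ⟨hx1, hx2⟩
      refine ⟨⟨x, hx1⟩, ?_, rfl⟩
      show (⟨x, hx1⟩ : G₁) ∈ Subgroup.normalizer (R : Set G₁)
      rw [Subgroup.mem_normalizer_iff]
      have hx2' := Subgroup.mem_normalizer_iff.mp (show x ∈ Subgroup.normalizer (R' : Set G) from hx2)
      have hmem : ∀ w : G₁, w ∈ R ↔ (w : G) ∈ R' := by
        intro w
        constructor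
        · intro h; exact ⟨w, h, rfl⟩
        · rintro ⟨v, hv, hvw⟩
          have : v = w := Subtype.ext hvw
          rwa [← this]
      intro w
      rw [hmem, hmem]
      exact hx2' w
  rw [hnorm]
  have hmain := main hG (m • S) G₁ hsn (by
    have e1 : ((m • S : Sylow p G) : Subgroup G) = MulAut.conj m • (S : Subgroup G) := rfl
    have e2 : MulAut.conj m • G₁ = G₁ := conj_smul_eq_iff.mpr (Subgroup.le_normalizer hm)
    have e3 : ((m • S : Sylow p G) : Subgroup G) ⊓ G₁ = MulAut.conj m • ((S : Subgroup G) ⊓ G₁) := by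
      rw [Subgroup.smul_inf, e1, e2]
    have hcs : ∀ Q : Subgroup G, Subgroup.centralizer ((MulAut.conj m • Q : Subgroup G) : Set G) = MulAut.conj m • Subgroup.centralizer (Q : Set G) := by
      intro B
      ext x
      rw [mem_conj_smul, Subgroup.mem_centralizer_iff, Subgroup.mem_centralizer_iff]
      constructor
      · intro h b hb
        have h1 := h (m * b * m⁻¹) (by
          show m * b * m⁻¹ ∈ MulAut.conj m • B
          rw [mem_conj_smul]
          have e : m⁻¹ * (m * b * m⁻¹) * m = b := by group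
          rwa [e])
        calc b * (m⁻¹ * x * m) = m⁻¹ * ((m * b * m⁻¹) * x) * m := by group
          _ = m⁻¹ * (x * (m * b * m⁻¹)) * m := by rw [h1]
          _ = _ := by group
      · intro h y hy
        have hy' : m⁻¹ * y * m ∈ B := mem_conj_smul.mp hy
        have h1 := h _ hy'
        calc y * x = m * ((m⁻¹ * y * m) * (m⁻¹ * x * m)) * m⁻¹ := by group
          _ = m * ((m⁻¹ * x * m) * (m⁻¹ * y * m)) * m⁻¹ := by rw [h1]
          _ = _ := by group
    rw [e3, e1, hcs, hcs, ← Subgroup.smul_inf, ← Subgroup.smul_inf]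
    exact Subgroup.pointwise_smul_le_pointwise_smul_iff.mpr hle) R' (hR.map _) (by
      intro h; apply hRne
      rwa [hR', Subgroup.map_eq_bot_iff_of_injective _ G₁.subtype_injective] at h) (Subgroup.map_subtype_le _) (by
      have e1 : ((m • S : Sylow p G) : Subgroup G) = MulAut.conj m • (S : Subgroup G) := rfl
      have e2 : MulAut.conj m • G₁ = G₁ := conj_smul_eq_iff.mpr (Subgroup.le_normalizer hm)
      have e3 : ((m • S : Sylow p G) : Subgroup G) ⊓ G₁ = MulAut.conj m • ((S : Subgroup G) ⊓ G₁) := by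
        rw [Subgroup.smul_inf, e1, e2]
      rw [e3, hmT]
      have h1 : T' ≤ (Subgroup.normalizer (R : Set G₁)).map G₁.subtype := Subgroup.map_mono hT
      rw [hnorm] at h1
      exact h1.trans inf_le_right)
  exact hmain

end Cfsg.Agent.S3023
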