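import Cfsg.Statements.S3025
import Mathlib
import Cfsg.Agent.LibPCyc
import Cfsg.Agent.LibPCyc2
import Cfsg.Agent.LibLE11Act

set_option autoImplicit false
set_option linter.all false
open Cfsg

namespace Cfsg.Agent.S3025

open Subgroup
open scoped Pointwise

/-- Let F be a finite group and H a nontrivial subgroup of F that is contained in every nontrivial subgroup of F which H normalizes. Then F has a nontrivial normal subgroup N contained in every nontrivial normal subgroup of F (a unique minimal normal subgroup), N is simple, and one of the following holds: C_F(N) = 1; or H = N has prime order p, C_F(N) is cyclic of order a power of p, and F/C_F(N) is cyclic of order dividing p − 1; or H = N has order 2, N is central in F, and F is a generalized quaternion group. -/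
theorem result {F : Type*} [Group F] [Finite F] (H : Subgroup F) (hH : H ≠ ⊥)
    (hmin : ∀ R : Subgroup F, R ≠ ⊥ → H ≤ Subgroup.normalizer (R : Set F) → H ≤ R) :
    ∃ N : Subgroup F, N.Normal ∧ N ≠ ⊥ ∧ (∀ M : Subgroup F, M.Normal → M ≠ ⊥ → N ≤ M) ∧ IsSimpleGroup ↥N ∧
      (Subgroup.centralizer (N : Set F) = ⊥ ∨
       (H = N ∧ (Nat.card N).Prime ∧ IsCyclic ↥(Subgroup.centralizer (N : Set F)) ∧
          (∃ k : ℕ, 1 ≤ k ∧ Nat.card ↥(Subgroup.centralizer (N : Set F)) = Nat.card N ^ k) ∧
          (∃ g : F, Subgroup.centralizer (N : Set F) ⊔ Subgroup.zpowers g = ⊤) ∧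
          (Subgroup.centralizer (N : Set F)).index ∣ Nat.card N - 1) ∨
       (H = N ∧ Nat.card N = 2 ∧ Subgroup.centralizer (N : Set F) = ⊤ ∧
          ∃ k : ℕ, 1 ≤ k ∧ Nonempty (F ≃* QuaternionGroup (2 ^ k)))) := by
  classical
  -- minimal normal subgroup
  let S : Set (Subgroup F) := {N | N.Normal ∧ N ≠ ⊥}
  have hFnt : Nontrivial F := by
    by_contra h
    rw [not_nontrivial_iff_subsingleton] at h
    exact hH (Subsingleton.elim _ _)
  have hSne : S.Nonempty := ⟨⊤, inferInstance, top_ne_bot⟩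
  obtain ⟨N, ⟨hNn, hNne⟩, hNmin⟩ := Set.exists_min_image S (fun N => Nat.card N) (Set.toFinite _) hSne
  have hHle : ∀ M : Subgroup F, M.Normal → M ≠ ⊥ → H ≤ M := by
    intro M hM hMne
    apply hmin M hMne
    rw [normalizer_eq_top]; exact le_top
  have huniq : ∀ M : Subgroup F, M.Normal → M ≠ ⊥ → N ≤ M := by
    intro M hM hMne
    have h1 : H ≤ N ⊓ M := le_inf (hHle N hNn hNne) (hHle M hM hMne)
    have h2 : (N ⊓ M) ≠ ⊥ := by
      intro h
      rw [h, le_bot_iff] at h1
      exact hH h1
    have h3 := hNmin (N ⊓ M) ⟨inferInstance, h2⟩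
    have h4 : N ⊓ M = N := Subgroup.eq_of_le_of_card_ge inf_le_left h3
    exact inf_eq_left.1 h4
  have hHN : H ≤ N := hHle N hNn hNne
  -- simplicity
  have hN1 : ∀ K : Subgroup F, K ≤ N → K ≠ ⊥ → N ≤ normalizer (K : Set F) → K = N := by
    let J : Subgroup F := sInf {K | K ≤ N ∧ K ≠ ⊥ ∧ N ≤ normalizer (K : Set F)}
    have hHJ : H ≤ J := by
      apply le_sInf
      rintro K ⟨h1, h2, h3⟩
      exact hmin K h2 (hHN.trans h3)
    have hJn : J.Normal := by
      refine ⟨fun j hj g => ?_⟩
      rw [mem_sInf] at hj ⊢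
      rintro K ⟨h1, h2, h3⟩
      have h4 : j ∈ MulAut.conj g⁻¹ • K := by
        apply hj
        refine ⟨?_, ?_, ?_⟩
        · intro y hy
          rw [CfsgLib.LE11Syl.mem_conj_smul, inv_inv] at hy
          have h5 := hNn.conj_mem _ (h1 hy) g⁻¹
          have e : g⁻¹ * (g * y * g⁻¹) * g⁻¹⁻¹ = y := by group
          rwa [e] at h5
        · intro h
          apply h2
          have h5 := CfsgLib.LE11Syl.card_conj g⁻¹ K
          rw [h, card_bot] at h5
          exact (card_eq_one (H := K)).1 h5.symm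
        · intro n hn
          rw [← CfsgLib.LE11Syl.conj_smul_eq_iff]
          have h5 : g * n * g⁻¹ ∈ N := hNn.conj_mem n hn g
          have h6 := CfsgLib.LE11Syl.conj_smul_eq_iff.2 (h3 h5)
          have e : MulAut.conj n * MulAut.conj g⁻¹ = MulAut.conj g⁻¹ * MulAut.conj (g * n * g⁻¹) := by
            rw [← map_mul, ← map_mul]; congr 1; group
          rw [← mul_smul, e, mul_smul, h6]
      rw [CfsgLib.LE11Syl.mem_conj_smul, inv_inv] at h4
      exact h4
    have hJne : J ≠ ⊥ := by
      intro h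
      rw [h, le_bot_iff] at hHJ
      exact hH hHJ
    intro K h1 h2 h3
    apply le_antisymm h1
    exact (huniq J hJn hJne).trans (sInf_le ⟨h1, h2, h3⟩)
  have hNnt : Nontrivial N := (nontrivial_iff_ne_bot N).2 hNne
  have hsimp : IsSimpleGroup ↥N := by
    refine ⟨fun M hM => ?_⟩
    by_cases hMb : M = ⊥
    · exact Or.inl hMb
    right
    have h1 := hN1 (M.map N.subtype) (map_subtype_le M) (by
      rw [Ne, map_eq_bot_iff_of_injective _ N.subtype_injective]; exact hMb) (by
      intro n hn
      apply CfsgLib.LE11Act.mem_normalizer_of_forall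
      rintro _ ⟨m, hm, rfl⟩
      exact ⟨_, hM.conj_mem m hm ⟨n, hn⟩, rfl⟩)
    rw [eq_top_iff]
    intro n _
    have h2 : (n : F) ∈ M.map N.subtype := by rw [h1]; exact n.2
    obtain ⟨m, hm, hmn⟩ := h2
    have : m = n := Subtype.ext hmn
    rw [← this]; exact hm
  refine ⟨N, hNn, hNne, huniq, hsimp, ?_⟩
  obtain ⟨C, hC⟩ : ∃ C, C = centralizer (N : Set F) := ⟨_, rfl⟩
  have hCn : C.Normal := by
    rw [hC]
    have := hNn
    infer_instance
  rw [← hC]
  by_cases hCb : C = ⊥
  · exact Or.inl hCb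
  right
  have hNC : N ≤ C := huniq C hCn hCb
  have hNab : ∀ a ∈ N, ∀ b ∈ N, a * b = b * a := by
    intro a ha b hb
    have h1 := hNC hb
    rw [hC, mem_centralizer_iff] at h1
    exact h1 a ha
  let instN : CommGroup N := { (inferInstance : Group N) with mul_comm := fun a b => Subtype.ext (hNab a a.2 b b.2) }
  obtain ⟨p, hpN⟩ : ∃ p, p = Nat.card N := ⟨_, rfl⟩
  have hpp : p.Prime := by
    rw [hpN]
    exact IsSimpleGroup.prime_card
  have : Fact p.Prime := ⟨hpp⟩
  have hHN' : H = N := by
    apply Subgroup.eq_of_le_of_card_ge hHN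
    have h1 : Nat.card H ∣ p := by rw [hpN]; exact card_dvd_of_le hHN
    rcases (Nat.dvd_prime hpp).1 h1 with h2 | h2
    · exact absurd (card_eq_one.1 h2) hH
    · rw [h2, hpN]
  have hR : ∀ R : Subgroup F, R ≤ C → R ≠ ⊥ → N ≤ R := by
    intro R hRC hRne
    rw [← hHN']
    apply hmin R hRne
    rw [hHN']
    intro n hn
    apply CfsgLib.LE11Act.mem_normalizer_of_forall
    intro r hr
    have h1 := hRC hr
    rw [hC, mem_centralizer_iff] at h1
    rw [h1 n hn, mul_inv_cancel_right]; exact hr
  have hCp : ∃ k : ℕ, 1 ≤ k ∧ Nat.card C = p ^ k := by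
    have h1 : IsPGroup p C := by
      rw [IsPGroup.iff_card]
      refine ⟨_, Nat.eq_prime_pow_of_unique_prime_dvd Nat.card_pos.ne' ?_⟩
      intro q hq hqd
      have : Fact q.Prime := ⟨hq⟩
      obtain ⟨c, hc⟩ := exists_prime_orderOf_dvd_card' q hqd
      have h2 := hR (zpowers (c : F)) (zpowers_le.2 c.2) (by
        rw [Ne, zpowers_eq_bot]
        intro h
        have : c = 1 := Subtype.ext h
        rw [this, orderOf_one] at hc
        exact hq.one_lt.ne hc)
      have h3 := card_dvd_of_le h2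
      rw [Nat.card_zpowers, Subgroup.orderOf_coe, hc, ← hpN] at h3
      exact ((Nat.prime_dvd_prime_iff_eq hpp hq).1 h3).symm
    obtain ⟨k, hk⟩ := IsPGroup.iff_card.1 h1
    refine ⟨k, ?_, hk⟩
    rcases Nat.eq_zero_or_pos k with h0 | h0
    · rw [h0, pow_zero] at hk
      exact absurd (card_eq_one.1 hk) hCb
    · exact h0
  obtain ⟨k0, hk0, hCk⟩ := hCp
  have hCpg : IsPGroup p C := IsPGroup.of_card hCk
  have hCu : ∀ R1 R2 : Subgroup C, Nat.card R1 = p → Nat.card R2 = p → R1 = R2 := by
    have key : ∀ R : Subgroup C, Nat.card R = p → R.map C.subtype = N := by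
      intro R hRc
      have h1 : Nat.card (R.map C.subtype) = p := by
        rw [Nat.card_congr (R.equivMapOfInjective _ C.subtype_injective).toEquiv.symm, hRc]
      symm
      apply Subgroup.eq_of_le_of_card_ge
      · apply hR _ (map_subtype_le R)
        intro h
        rw [h, card_bot] at h1
        exact hpp.one_lt.ne h1
      · rw [h1, hpN]
    intro R1 R2 h1 h2
    apply map_injective C.subtype_injective
    rw [key R1 h1, key R2 h2]
  have hCcq : IsCyclic C ∨ (p = 2 ∧ ∃ k : ℕ, 1 ≤ k ∧ Nonempty (C ≃* QuaternionGroup (2 ^ k))) := by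
    by_cases hp2 : p = 2
    · subst hp2
      rcases CfsgLib.PCyc.cyclic_or_quaternion hCpg hCu with h | ⟨n, ⟨e⟩⟩
      · exact Or.inl h
      · rcases Nat.eq_zero_or_pos n with h0 | h0
        · left
          subst h0
          have h1 : IsCyclic (QuaternionGroup (2 ^ 0)) := by
            rw [pow_zero]; exact QuaternionGroup.quaternionGroup_one_isCyclic
          exact isCyclic_of_injective e.toMonoidHom e.injective
        · exact Or.inr ⟨rfl, n, h0, ⟨e⟩⟩
    · left
      by_contra hnc
      obtain ⟨A, -, hAc, hAe, hA⟩ := CfsgLib.PCyc.exists_normal_elem hpp hp2 hCpg hnc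
      obtain ⟨R1, R2, h1, h2, h3⟩ := CfsgLib.PCyc.exists_two_subgroups hpp A hA hAe
      exact h3 (hCu R1 R2 h1 h2)
  -- automorphisms of N
  have hker : (MulAut.conjNormal (H := N) : F →* MulAut N).ker = C := by
    ext g
    rw [MonoidHom.mem_ker, hC, mem_centralizer_iff]
    constructor
    · intro h n hn
      have h1 := congrArg (fun f : MulAut N => ((f ⟨n, hn⟩ : N) : F)) h
      rw [MulAut.conjNormal_apply] at h1
      have h2 : g * n * g⁻¹ = n := h1
      calc n * g = g * n * g⁻¹ * g := by rw [h2]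
        _ = g * n := by group
    · intro h
      apply MulEquiv.ext
      intro n
      apply Subtype.ext
      rw [MulAut.conjNormal_apply]
      show g * n * g⁻¹ = n
      rw [← h n n.2, mul_inv_cancel_right]
  have hNcyc : IsCyclic N := isCyclic_of_prime_card hpN.symm
  have hcardN : Nat.card N = p := hpN.symm
  have hAutc : IsCyclic (MulAut N) := by
    have e := IsCyclic.mulAutMulEquiv N
    rw [hcardN] at e
    exact isCyclic_of_injective e.toMonoidHom e.injective
  have hAutcard : Nat.card (MulAut N) = p - 1 := by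
    have e := IsCyclic.mulAutMulEquiv N
    rw [hcardN] at e
    rw [Nat.card_congr e.toEquiv, Nat.card_eq_fintype_card, ZMod.card_units]
  have hidx : C.index ∣ p - 1 := by
    rw [← hker, index_ker, ← hAutcard]
    exact card_subgroup_dvd_card _
  rcases hCcq with hcyc | ⟨hp2, k, hk, ⟨e⟩⟩
  · left
    refine ⟨hHN', by rw [hcardN]; exact hpp, hcyc, ⟨k0, hk0, by rw [hcardN]; exact hCk⟩, ?_, by rw [hcardN]; exact hidx⟩
    have hrc : IsCyclic (MulAut.conjNormal (H := N) : F →* MulAut N).range := inferInstance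
    obtain ⟨⟨_, ⟨g, rfl⟩⟩, hg⟩ := hrc.exists_generator
    refine ⟨g, ?_⟩
    rw [eq_top_iff]
    intro f _
    obtain ⟨i, hi⟩ := mem_zpowers_iff.1 (hg ⟨MulAut.conjNormal f, ⟨f, rfl⟩⟩)
    have h1 : (MulAut.conjNormal g : MulAut N) ^ i = MulAut.conjNormal f := congrArg Subtype.val hi
    have h2 : f * (g ^ i)⁻¹ ∈ C := by
      rw [← hker, MonoidHom.mem_ker, map_mul, map_inv, map_zpow, h1, mul_inv_cancel]
    have h3 : f = (f * (g ^ i)⁻¹) * g ^ i := by group
    rw [h3]
    exact mul_mem (mem_sup_left h2) (mem_sup_right (zpow_mem (mem_zpowers g) i))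
  · right
    have hCt : C = ⊤ := by
      rw [← index_eq_one]
      rw [hp2] at hidx
      exact Nat.dvd_one.1 hidx
    refine ⟨hHN', by rw [hcardN, hp2], hCt, k, hk, ⟨?_⟩⟩
    rw [hCt] at e
    exact topEquiv.symm.trans e

end Cfsg.Agent.S3025
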