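import Cfsg.Statements.S3027
import Mathlib

set_option autoImplicit false
set_option linter.all false
open Cfsg

namespace Cfsg.Agent.S3027

open scoped commutatorElement

theorem step_le {G : Type*} [Group G] [Finite G] (D : Subgroup G) [D.Normal] (hperf : ⁅(⊤ : Subgroup G), (⊤ : Subgroup G)⁆ ⊔ D = ⊤)
    (N : Subgroup G) (hNn : N.Normal) (hND : N ⊔ D = ⊤) (hleast : ∀ X : Subgroup G, X.Normal → X ⊔ D = ⊤ → N ≤ X)
    (B M : Subgroup G) (hNM : N ≤ M) (hBM : M ≤ Subgroup.normalizer (B : Set G)) (hBD : B ⊔ D = ⊤) : N ≤ B := by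
  classical
  -- images in G/D
  have himg : ∀ X : Subgroup G, X ⊔ D = ⊤ ↔ X.map (QuotientGroup.mk' D) = ⊤ := by
    intro X
    constructor
    · intro h
      have h1 : (X ⊔ D).map (QuotientGroup.mk' D) = ⊤ := by
        rw [h]; exact Subgroup.map_top_of_surjective _ (QuotientGroup.mk'_surjective D)
      rw [Subgroup.map_sup] at h1
      have h2 : D.map (QuotientGroup.mk' D) = ⊥ := by
        rw [Subgroup.map_eq_bot_iff, QuotientGroup.ker_mk']
      rwa [h2, sup_bot_eq] at h1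
    · intro h
      have h1 : (X.map (QuotientGroup.mk' D)).comap (QuotientGroup.mk' D) = ⊤ := by rw [h, Subgroup.comap_top]
      rwa [Subgroup.comap_map_eq, QuotientGroup.ker_mk'] at h1
  have hperf' : ⁅(⊤ : Subgroup (G ⧸ D)), (⊤ : Subgroup (G ⧸ D))⁆ = ⊤ := by
    have h1 := (himg _).mp hperf
    rw [Subgroup.map_commutator, Subgroup.map_top_of_surjective _ (QuotientGroup.mk'_surjective D)] at h1
    exact h1
  have hcomm : ∀ X Y : Subgroup G, X ⊔ D = ⊤ → Y ⊔ D = ⊤ → ⁅X, Y⁆ ⊔ D = ⊤ := by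
    intro X Y hX hY
    rw [himg] at hX hY ⊢
    rw [Subgroup.map_commutator, hX, hY, hperf']
  let 𝒮 : Set (Subgroup G) := {X | X ≤ N ∧ N ≤ Subgroup.normalizer (X : Set G) ∧ X ⊔ D = ⊤}
  have hinf : ∀ X ∈ 𝒮, ∀ Y ∈ 𝒮, X ⊓ Y ∈ 𝒮 := by
    rintro X ⟨hX1, hX2, hX3⟩ Y ⟨hY1, hY2, hY3⟩
    refine ⟨inf_le_left.trans hX1, ?_, ?_⟩
    · intro n hn
      rw [Subgroup.mem_normalizer_iff]
      intro z
      have h1 := Subgroup.mem_normalizer_iff.mp (hX2 hn) z
      have h2 := Subgroup.mem_normalizer_iff.mp (hY2 hn) z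
      exact ⟨fun h => ⟨h1.mp h.1, h2.mp h.2⟩, fun h => ⟨h1.mpr h.1, h2.mpr h.2⟩⟩
    · have h1 : ⁅X, Y⁆ ≤ X ⊓ Y := by
        apply le_inf
        · rw [Subgroup.commutator_le]
          intro x hx y hy
          rw [commutatorElement_def]
          have h2 := (Subgroup.mem_normalizer_iff.mp (hX2 (hY1 hy)) x⁻¹).mp (X.inv_mem hx)
          have e : x * y * x⁻¹ * y⁻¹ = x * (y * x⁻¹ * y⁻¹) := by group
          rw [e]; exact X.mul_mem hx h2
        · rw [Subgroup.commutator_le]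
          intro x hx y hy
          rw [commutatorElement_def]
          exact Y.mul_mem ((Subgroup.mem_normalizer_iff.mp (hY2 (hX1 hx)) y).mp hy) (Y.inv_mem hy)
      rw [eq_top_iff, ← hcomm X Y hX3 hY3]
      exact sup_le_sup_right h1 D
  have hN𝒮 : N ∈ 𝒮 := ⟨le_rfl, Subgroup.le_normalizer, hND⟩
  -- minimal element of 𝒮 below N ⊓ B
  have hNB : N ⊓ B ∈ 𝒮 := by
    refine ⟨inf_le_left, ?_, ?_⟩
    · intro n hn
      rw [Subgroup.mem_normalizer_iff]
      intro z
      have h1 := Subgroup.mem_normalizer_iff.mp (Subgroup.le_normalizer hn) z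
      have h2 := Subgroup.mem_normalizer_iff.mp (hBM (hNM hn)) z
      exact ⟨fun h => ⟨h1.mp h.1, h2.mp h.2⟩, fun h => ⟨h1.mpr h.1, h2.mpr h.2⟩⟩
    · have h1 : ⁅N, B⁆ ≤ N ⊓ B := by
        apply le_inf
        · rw [Subgroup.commutator_le]
          intro x hx y hy
          rw [commutatorElement_def]
          have h2 := hNn.conj_mem x⁻¹ (N.inv_mem hx) y
          have e : x * y * x⁻¹ * y⁻¹ = x * (y * x⁻¹ * y⁻¹) := by group
          rw [e]; exact N.mul_mem hx h2
        · rw [Subgroup.commutator_le]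
          intro x hx y hy
          rw [commutatorElement_def]
          exact B.mul_mem ((Subgroup.mem_normalizer_iff.mp (hBM (hNM hx)) y).mp hy) (B.inv_mem hy)
      rw [eq_top_iff, ← hcomm N B hND hBD]
      exact sup_le_sup_right h1 D
  obtain ⟨Y, hY, hYmin⟩ := Set.Finite.exists_minimalFor (fun X : Subgroup G => Nat.card X) 𝒮 (Set.toFinite _) ⟨N, hN𝒮⟩
  have hYle : ∀ X ∈ 𝒮, Y ≤ X := by
    intro X hX
    have h1 := hYmin (j := Y ⊓ X) (hinf Y hY X hX) (Subgroup.card_le_of_le inf_le_left)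
    have h2 : Y ⊓ X = Y := Subgroup.eq_of_le_of_card_ge inf_le_left h1
    rw [← h2]; exact inf_le_right
  have hYn : Y.Normal := by
    refine ⟨fun y hy g => ?_⟩
    have h1 : Y.map (MulAut.conj g⁻¹).toMonoidHom ∈ 𝒮 := by
      refine ⟨?_, ?_, ?_⟩
      · rintro _ ⟨z, hz, rfl⟩
        exact hNn.conj_mem z (hY.1 hz) g⁻¹
      · intro n hn
        rw [Subgroup.mem_normalizer_iff]
        intro z
        have hn' : g * n * g⁻¹ ∈ N := hNn.conj_mem n hn g
        have h2 := Subgroup.mem_normalizer_iff.mp (hY.2.1 hn') (g * z * g⁻¹)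
        have hmem : ∀ w : G, w ∈ Y.map (MulAut.conj g⁻¹).toMonoidHom ↔ g * w * g⁻¹ ∈ Y := by
          intro w
          constructor
          · rintro ⟨v, hv, rfl⟩
            have e : g * ((MulAut.conj g⁻¹).toMonoidHom v) * g⁻¹ = v := by
              show g * (g⁻¹ * v * g⁻¹⁻¹) * g⁻¹ = v
              group
            rw [e]; exact hv
          · intro h
            refine ⟨_, h, ?_⟩
            show g⁻¹ * (g * w * g⁻¹) * g⁻¹⁻¹ = w
            group
        rw [hmem, hmem]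
        have e : g * n * g⁻¹ * (g * z * g⁻¹) * (g * n * g⁻¹)⁻¹ = g * (n * z * n⁻¹) * g⁻¹ := by group
        rw [e] at h2
        exact h2
      · have h2 : (Y ⊔ D).map (MulAut.conj g⁻¹).toMonoidHom = ⊤ := by
          rw [hY.2.2]; exact Subgroup.map_top_of_surjective _ (MulAut.conj g⁻¹).surjective
        rw [Subgroup.map_sup] at h2
        have h3 : D.map (MulAut.conj g⁻¹).toMonoidHom ≤ D := by
          rintro _ ⟨z, hz, rfl⟩
          exact (inferInstance : D.Normal).conj_mem z hz g⁻¹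
        rw [eq_top_iff, ← h2]
        exact sup_le_sup_left h3 _
    have h2 := hYle _ h1 hy
    obtain ⟨z, hz, hzy⟩ := h2
    have h3 : g⁻¹ * z * g⁻¹⁻¹ = y := hzy
    have h4 : g * y * g⁻¹ = z := by rw [← h3]; group
    rw [h4]; exact hz
  have h1 := hleast Y hYn hY.2.2
  exact h1.trans ((hYle _ hNB).trans inf_le_right)

/-- Let G be a finite group and D a normal subgroup of G such that G/D is perfect (that is, G = G′D). Then among the subnormal subgroups B of G with BD = G there is a least one, and it is normal in G. -/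
theorem result {G : Type*} [Group G] [Finite G] (D : Subgroup G) [D.Normal] (hperf : ⁅(⊤ : Subgroup G), (⊤ : Subgroup G)⁆ ⊔ D = ⊤) :
    ∃ B : Subgroup G, B.Normal ∧ B ⊔ D = ⊤ ∧ ∀ B' : Subgroup G, B'.IsSubnormal → B' ⊔ D = ⊤ → B ≤ B' := by
  classical
  -- the least normal subgroup
  let 𝒯 : Set (Subgroup G) := {X | X.Normal ∧ X ⊔ D = ⊤}
  have himg : ∀ X : Subgroup G, X ⊔ D = ⊤ ↔ X.map (QuotientGroup.mk' D) = ⊤ := by
    intro X
    constructor
    · intro h
      have h1 : (X ⊔ D).map (QuotientGroup.mk' D) = ⊤ := by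
        rw [h]; exact Subgroup.map_top_of_surjective _ (QuotientGroup.mk'_surjective D)
      rw [Subgroup.map_sup] at h1
      have h2 : D.map (QuotientGroup.mk' D) = ⊥ := by
        rw [Subgroup.map_eq_bot_iff, QuotientGroup.ker_mk']
      rwa [h2, sup_bot_eq] at h1
    · intro h
      have h1 : (X.map (QuotientGroup.mk' D)).comap (QuotientGroup.mk' D) = ⊤ := by rw [h, Subgroup.comap_top]
      rwa [Subgroup.comap_map_eq, QuotientGroup.ker_mk'] at h1
  have hperf' : ⁅(⊤ : Subgroup (G ⧸ D)), (⊤ : Subgroup (G ⧸ D))⁆ = ⊤ := by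
    have h1 := (himg _).mp hperf
    rw [Subgroup.map_commutator, Subgroup.map_top_of_surjective _ (QuotientGroup.mk'_surjective D)] at h1
    exact h1
  have hinf : ∀ X ∈ 𝒯, ∀ Y ∈ 𝒯, X ⊓ Y ∈ 𝒯 := by
    rintro X ⟨hX1, hX2⟩ Y ⟨hY1, hY2⟩
    refine ⟨inferInstance, ?_⟩
    have h1 : ⁅X, Y⁆ ⊔ D = ⊤ := by
      rw [himg] at hX2 hY2 ⊢
      rw [Subgroup.map_commutator, hX2, hY2, hperf']
    rw [eq_top_iff, ← h1]
    exact sup_le_sup_right (Subgroup.commutator_le_inf X Y) D
  have hT : (⊤ : Subgroup G) ∈ 𝒯 := ⟨inferInstance, top_sup_eq D⟩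
  obtain ⟨N, hN, hNmin⟩ := Set.Finite.exists_minimalFor (fun X : Subgroup G => Nat.card X) 𝒯 (Set.toFinite _) ⟨⊤, hT⟩
  have hNle : ∀ X : Subgroup G, X.Normal → X ⊔ D = ⊤ → N ≤ X := by
    intro X hX1 hX2
    have h1 := hNmin (j := N ⊓ X) (hinf N hN X ⟨hX1, hX2⟩) (Subgroup.card_le_of_le inf_le_left)
    have h2 : N ⊓ X = N := Subgroup.eq_of_le_of_card_ge inf_le_left h1
    rw [← h2]; exact inf_le_right
  refine ⟨N, hN.1, hN.2, ?_⟩
  intro B hB
  induction hB with
  | top => intro _; exact le_top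
  | step H K h_le hSubn hNn ih =>
    intro hHD
    have hKD : K ⊔ D = ⊤ := by
      rw [eq_top_iff, ← hHD]; exact sup_le_sup_right h_le D
    have h1 := ih hKD
    have h2 : K ≤ Subgroup.normalizer (H : Set G) := by
      intro k hk
      rw [Subgroup.mem_normalizer_iff]
      intro z
      constructor
      · intro hz
        have := hNn.conj_mem ⟨z, h_le hz⟩ (Subgroup.mem_subgroupOf.mpr hz) ⟨k, hk⟩
        exact Subgroup.mem_subgroupOf.mp this
      · intro hz
        have hzK : z ∈ K := by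
          have h3 := K.mul_mem (K.mul_mem (K.inv_mem hk) (h_le hz)) hk
          have e : k⁻¹ * (k * z * k⁻¹) * k = z := by group
          rwa [e] at h3
        have := hNn.conj_mem ⟨k * z * k⁻¹, h_le hz⟩ (Subgroup.mem_subgroupOf.mpr hz) ⟨k⁻¹, K.inv_mem hk⟩
        have h4 := Subgroup.mem_subgroupOf.mp this
        have e : ((⟨k⁻¹, K.inv_mem hk⟩ * ⟨k * z * k⁻¹, h_le hz⟩ * (⟨k⁻¹, K.inv_mem hk⟩)⁻¹ : K) : G) = z := by
          show k⁻¹ * (k * z * k⁻¹) * k⁻¹⁻¹ = z
          group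
        rwa [e] at h4
    exact step_le D hperf N hN.1 hN.2 hNle H K h1 h2 hHD

end Cfsg.Agent.S3027
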